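import Mathlib
import Cfsg.Agent.H29_Trv

set_option autoImplicit false

namespace Cfsg.Agent.H29.Trv

open Matrix

section Gen

variable {ι : Type*} [Fintype ι] [DecidableEq ι] {F : Type*} [Field F]

/-- the transvection `x ↦ x + φ(x) v` as an element of `GL` -/
def trv (v : ι → F) (φ : (ι → F) →ₗ[F] F) (h : φ v = 0) : GL ι F where
  val := LinearMap.toMatrix' (LinearMap.id + LinearMap.smulRight φ v)
  inv := LinearMap.toMatrix' (LinearMap.id - LinearMap.smulRight φ v)
  val_inv := by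
    rw [← LinearMap.toMatrix'_comp]
    have : (LinearMap.id + LinearMap.smulRight φ v) ∘ₗ (LinearMap.id - LinearMap.smulRight φ v) =
        (LinearMap.id : (ι → F) →ₗ[F] (ι → F)) := by
      ext1 i
      ext1
      simp only [LinearMap.comp_apply, LinearMap.add_apply, LinearMap.sub_apply, LinearMap.id_apply,
        LinearMap.smulRight_apply, map_sub, map_smul, h]
      module
    rw [this, LinearMap.toMatrix'_id]
  inv_val := by
    rw [← LinearMap.toMatrix'_comp]
    have : (LinearMap.id - LinearMap.smulRight φ v) ∘ₗ (LinearMap.id + LinearMap.smulRight φ v) =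
        (LinearMap.id : (ι → F) →ₗ[F] (ι → F)) := by
      ext1 i
      ext1
      simp only [LinearMap.comp_apply, LinearMap.add_apply, LinearMap.sub_apply, LinearMap.id_apply,
        LinearMap.smulRight_apply, map_add, map_smul, h]
      module
    rw [this, LinearMap.toMatrix'_id]

theorem trv_apply (v : ι → F) (φ : (ι → F) →ₗ[F] F) (h : φ v = 0) (x : ι → F) :
    (trv v φ h : Matrix ι ι F) *ᵥ x = x + φ x • v := by
  have : (trv v φ h : Matrix ι ι F) = LinearMap.toMatrix' (LinearMap.id + LinearMap.smulRight φ v) :=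
    rfl
  rw [this, LinearMap.toMatrix'_mulVec]
  rfl

theorem trv_mem_iff {M : Subgroup (GL ι F)} {v : ι → F} {φ : (ι → F) →ₗ[F] F} (h : φ v = 0) :
    trv v φ h ∈ M ↔ T M v φ := by
  constructor
  · intro hm
    exact ⟨h, _, hm, trv_apply v φ h⟩
  · rintro ⟨-, g, hg, h2⟩
    have : trv v φ h = g := GL_ext (fun x => by rw [trv_apply, h2])
    rwa [this]

theorem det_trv (v : ι → F) (φ : (ι → F) →ₗ[F] F) (h : φ v = 0) :
    (trv v φ h : Matrix ι ι F).det = 1 := by
  have : (trv v φ h : Matrix ι ι F) = LinearMap.toMatrix' (LinearMap.transvection φ v) := by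
    apply ext_mulVec
    intro x
    rw [trv_apply, LinearMap.toMatrix'_mulVec, LinearMap.transvection.apply]
  rw [this, LinearMap.det_toMatrix', LinearMap.transvection.det, h, add_zero]

end Gen

section SL

variable {ι : Type} [Fintype ι] [DecidableEq ι] {F : Type*} [Field F]
variable {M : Subgroup (GL ι F)}

theorem mem_SL_iff (g : GL ι F) :
    g ∈ Cfsg.Geo.specialLinear ι F ↔ (g : Matrix ι ι F).det = 1 := by
  unfold Cfsg.Geo.specialLinear
  rw [MonoidHom.mem_ker]
  constructor
  · intro h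
    have h2 := congrArg Units.val h
    simpa using h2
  · intro h
    apply Units.ext
    simpa using h

theorem trv_mem_SL (v : ι → F) (φ : (ι → F) →ₗ[F] F) (h : φ v = 0) :
    trv v φ h ∈ Cfsg.Geo.specialLinear ι F := by
  rw [mem_SL_iff, det_trv]

theorem T_SL (v : ι → F) (φ : (ι → F) →ₗ[F] F) (h : φ v = 0) :
    T (Cfsg.Geo.specialLinear ι F) v φ := (trv_mem_iff h).1 (trv_mem_SL v φ h)

/-- to prove maximality: find a bad element and treat overgroups -/
theorem isMaximalIn_of {G : Type*} [Group G] {K H : Subgroup G} (hle : H ≤ K) (hne : ¬ K ≤ H)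
    (h : ∀ M : Subgroup G, H ≤ M → M ≤ K → ∀ g ∈ M, g ∉ H → K ≤ M) :
    Cfsg.Geo.IsMaximalIn K H := by
  refine ⟨lt_of_le_of_ne hle (fun he => hne he.ge), fun M h1 h2 => ?_⟩
  by_cases hM : M ≤ H
  · left; exact le_antisymm hM h1
  · right
    obtain ⟨g, hg, hgH⟩ := SetLike.not_le_iff_exists.1 hM
    exact le_antisymm h2 (h M h1 h2 g hg hgH)

/-- membership in the stabiliser of a subspace -/
theorem mem_stab_iff (W : Submodule F (ι → F)) (g : GL ι F) :
    g ∈ Cfsg.Geo.subspaceStabilizer W ↔ ∀ w ∈ W, (g : Matrix ι ι F) *ᵥ w ∈ W := by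
  constructor
  · intro h w hw
    exact (h w).1 hw
  · intro h v
    refine ⟨h v, fun hv => ?_⟩
    have hmap : W.map (linE g : (ι → F) →ₗ[F] (ι → F)) = W := by
      apply Submodule.eq_of_le_of_finrank_eq
      · rintro _ ⟨w, hw, rfl⟩
        exact h w hw
      · exact LinearEquiv.finrank_map_eq (linE g) W
    have hv' : (g : Matrix ι ι F) *ᵥ v ∈ W := hv
    rw [← hmap] at hv'
    obtain ⟨w, hw, hwv⟩ := hv'
    have : w = v := mulVec_inj (g := g) hwv
    rw [← this]
    exact hw

theorem T_stab_of_left (W : Submodule F (ι → F)) {v : ι → F} (hv : v ∈ W)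
    {φ : (ι → F) →ₗ[F] F} (h : φ v = 0) : T (Cfsg.Geo.subspaceStabilizer W) v φ := by
  rw [← trv_mem_iff h, mem_stab_iff]
  intro w hw
  rw [trv_apply]
  exact W.add_mem hw (W.smul_mem _ hv)

theorem T_stab_of_right (W : Submodule F (ι → F)) {v : ι → F}
    {φ : (ι → F) →ₗ[F] F} (h : φ v = 0) (hW : ∀ w ∈ W, φ w = 0) :
    T (Cfsg.Geo.subspaceStabilizer W) v φ := by
  rw [← trv_mem_iff h, mem_stab_iff]
  intro w hw
  rw [trv_apply, hW w hw, zero_smul, add_zero]
  exact hw

theorem T_inf {M N : Subgroup (GL ι F)} {v : ι → F} {φ : (ι → F) →ₗ[F] F} (h : T M v φ)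
    (h' : T N v φ) : T (M ⊓ N) v φ := by
  have h0 := h.1
  exact (trv_mem_iff h0).1 ⟨(trv_mem_iff h0).2 h, (trv_mem_iff h0).2 h'⟩

/-- stabilisers of proper nonzero subspaces do not contain `SL` -/
theorem not_SL_le_stab {W : Submodule F (ι → F)} (hW0 : W ≠ ⊥) (hW1 : W ≠ ⊤) :
    ¬ Cfsg.Geo.specialLinear ι F ≤ Cfsg.Geo.subspaceStabilizer W := by
  intro hle
  obtain ⟨w, hw, hw0⟩ := W.ne_bot_iff.1 hW0
  obtain ⟨u, hu⟩ : ∃ u, u ∉ W := by
    by_contra hcon
    push Not at hcon
    exact hW1 (eq_top_iff.2 fun x _ => hcon x)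
  have hwu : w ∉ Submodule.span F {u} := by
    intro hmem
    obtain ⟨c, rfl⟩ := Submodule.mem_span_singleton.1 hmem
    have hc : c ≠ 0 := by
      rintro rfl
      exact hw0 (zero_smul _ _)
    exact hu ((W.smul_mem_iff hc).1 hw)
  obtain ⟨φ, h1, h2⟩ := exists_functional _ w hwu
  have h3 := (mem_stab_iff W _).1 (hle (trv_mem_SL u φ (h2 u (Submodule.mem_span_singleton_self u)))) w hw
  rw [trv_apply, h1, one_smul] at h3
  exact hu ((W.add_mem_iff_right hw).1 h3)

end SL

end Cfsg.Agent.H29.Trv
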