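import Mathlib
import Cfsg.Agent.H29_Trv2

set_option autoImplicit false

/-! transvections and two-argument forms -/

namespace Cfsg.Agent.H29.Trv

open Matrix

section Gen

variable {ι : Type*} [Fintype ι] [DecidableEq ι] {F : Type*} [Field F]

/-- `f` is linear in the first variable, additive in the second, non-degenerate -/
structure LL (f : (ι → F) → (ι → F) → F) : Prop where
  add_left : ∀ x y v, f (x + y) v = f x v + f y v
  smul_left : ∀ (c : F) (x v : ι → F), f (c • x) v = c * f x v
  add_right : ∀ v x y, f v (x + y) = f v x + f v y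
  nondeg : ∀ v, v ≠ 0 → ∃ x, f x v ≠ 0

variable {f : (ι → F) → (ι → F) → F}

/-- the functional `x ↦ f x v` -/
def fr (hf : LL f) (v : ι → F) : (ι → F) →ₗ[F] F where
  toFun x := f x v
  map_add' x y := hf.add_left x y v
  map_smul' c x := by simp [hf.smul_left]

@[simp] theorem fr_apply (hf : LL f) (v x : ι → F) : fr hf v x = f x v := rfl

theorem fr_add (hf : LL f) (v w : ι → F) : fr hf (v + w) = fr hf v + fr hf w :=
  LinearMap.ext fun x => hf.add_right x v w

theorem LL.zero_right (hf : LL f) (x : ι → F) : f x 0 = 0 := by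
  have := hf.add_right x 0 0
  simpa using this

theorem LL.neg_right (hf : LL f) (x y : ι → F) : f x (-y) = - f x y := by
  have := hf.add_right x y (-y)
  rw [add_neg_cancel, hf.zero_right] at this
  linear_combination -this

theorem fr_neg (hf : LL f) (v : ι → F) : fr hf (-v) = - fr hf v :=
  LinearMap.ext fun x => hf.neg_right x v

theorem fr_injective (hf : LL f) : Function.Injective (fr hf) := by
  intro v w h
  by_contra hne
  obtain ⟨x, hx⟩ := hf.nondeg (v - w) (sub_ne_zero.2 hne)
  apply hx
  have h2 := LinearMap.congr_fun h x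
  simp only [fr_apply] at h2
  rw [sub_eq_add_neg, hf.add_right, hf.neg_right, h2, add_neg_cancel]

theorem fr_surjective [Finite F] (hf : LL f) : Function.Surjective (fr hf) := by
  have e : Nonempty ((ι → F) ≃ ((ι → F) →ₗ[F] F)) :=
    ⟨((Pi.basisFun F ι).toDualEquiv).toEquiv⟩
  obtain ⟨e⟩ := e
  haveI : Finite ((ι → F) →ₗ[F] F) := Finite.of_equiv _ e
  exact (Finite.injective_iff_surjective_of_equiv e).1 (fr_injective hf)

/-- given `u` not in `span v` there is `z` with `f v z = 0`, `f u z = 1` -/
theorem exists_sep [Finite F] (hf : LL f) (W : Submodule F (ι → F)) {u : ι → F} (h : u ∉ W) :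
    ∃ z, f u z = 1 ∧ ∀ w ∈ W, f w z = 0 := by
  obtain ⟨φ, h1, h2⟩ := exists_functional W u h
  obtain ⟨z, rfl⟩ := fr_surjective hf φ
  exact ⟨z, h1, h2⟩

/-- conjugating a transvection with functional `f(·, x)` by an isometry -/
theorem T.conj_isom {M : Subgroup (GL ι F)} (hf : LL f) {u x : ι → F} (h : T M u (fr hf x))
    {g : GL ι F} (hg : g ∈ M)
    (hiso : ∀ x y, f ((g : Matrix ι ι F) *ᵥ x) ((g : Matrix ι ι F) *ᵥ y) = f x y) :
    T M ((g : Matrix ι ι F) *ᵥ u) (fr hf ((g : Matrix ι ι F) *ᵥ x)) := by
  apply T.conj' hg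
  have : fr hf ((g : Matrix ι ι F) *ᵥ x) ∘ₗ lin g = fr hf x := by
    ext1 i
    ext1
    simp only [LinearMap.comp_apply, lin_apply, fr_apply, hiso]
  rwa [this]

end Gen

section Symp

variable {ι : Type} [Fintype ι] [DecidableEq ι] {F : Type*} [Field F]
variable {f : (ι → F) → (ι → F) → F}

/-- alternating non-degenerate bilinear form -/
structure Alt (f : (ι → F) → (ι → F) → F) : Prop extends LL f where
  smul_right : ∀ (c : F) (v x : ι → F), f v (c • x) = c * f v x
  self : ∀ v, f v v = 0

theorem Alt.skew (hf : Alt f) (v w : ι → F) : f v w = - f w v := by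
  have := hf.self (v + w)
  rw [hf.add_left, hf.add_right, hf.add_right, hf.self, hf.self] at this
  linear_combination this

theorem Alt.of_symp (hf : Cfsg.Geo.IsSymplecticForm f) : Alt f where
  add_left := hf.bilinear.add_left
  smul_left := hf.bilinear.smul_left
  add_right := hf.bilinear.add_right
  nondeg := fun v hv => (hf.nondegenerate v hv).1
  smul_right := hf.bilinear.smul_right
  self := hf.alternating

theorem fr_smul (hf : Alt f) (c : F) (v : ι → F) : fr hf.toLL (c • v) = c • fr hf.toLL v :=
  LinearMap.ext fun x => hf.smul_right c x v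

/-- the transvection `x ↦ x + a f(x, v) v` is an isometry -/
theorem Alt.isom (hf : Alt f) (v : ι → F) (a : F) (x y : ι → F) :
    f (x + (a * f x v) • v) (y + (a * f y v) • v) = f x y := by
  rw [hf.add_left, hf.add_right, hf.add_right, hf.smul_left, hf.smul_left, hf.smul_right,
    hf.smul_right, hf.self, hf.skew v y]
  ring

theorem exists_sep' [Finite F] (hf : Alt f) (W : Submodule F (ι → F)) {u : ι → F} (h : u ∉ W) :
    ∃ z, f z u = 1 ∧ ∀ w ∈ W, f z w = 0 := by
  obtain ⟨z, h1, h2⟩ := exists_sep hf.toLL W h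
  refine ⟨-z, ?_, fun w hw => ?_⟩
  · rw [hf.skew, hf.neg_right, h1, neg_neg]
  · rw [hf.skew, hf.neg_right, h2 w hw, neg_neg]

/-- `M` contains all isometric transvections with centre `v` -/
def Full (hf : Alt f) (M : Subgroup (GL ι F)) (v : ι → F) : Prop :=
  ∀ a : F, T M v (a • fr hf.toLL v)

/-- if `M` contains all isometric transvections of `f` and one more transvection with a functional
not proportional, then `M` contains all transvections -/
theorem Alt.ctr_eq_top [Finite F] (hf : Alt f) {M : Subgroup (GL ι F)}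
    (hfull : ∀ v, Full hf M v) {u x₀ : ι → F} (hx : x₀ ∉ Submodule.span F {u})
    (hu0 : u ≠ 0) (hT : T M u (fr hf.toLL x₀)) : ctr M = ⊤ := by
  have hux : f u x₀ = 0 := hT.1
  -- the moving lemma
  have hmove : ∀ y x, f u y = 0 → T M u (fr hf.toLL x) → ∀ a : F,
      T M u (fr hf.toLL ((a * f x y) • y)) := by
    intro y x hy h a
    obtain ⟨-, g, hg, h2⟩ := hfull y a
    have hiso : ∀ p q, f ((g : Matrix ι ι F) *ᵥ p) ((g : Matrix ι ι F) *ᵥ q) = f p q := by
      intro p q
      rw [h2, h2]
      exact hf.isom y a p q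
    have h3 := h.conj_isom hf.toLL hg hiso
    rw [h2, h2] at h3
    simp only [LinearMap.smul_apply, fr_apply, smul_eq_mul, hy, mul_zero, zero_smul, add_zero] at h3
    rw [fr_add] at h3
    have h4 := h3.add_right h.neg
    simpa using h4
  have hX : ∀ y, f u y = 0 → T M u (fr hf.toLL y) := by
    have h1 : ∀ y, f u y = 0 → f x₀ y ≠ 0 → T M u (fr hf.toLL y) := by
      intro y hy hne
      have := hmove y x₀ hy hT (f x₀ y)⁻¹
      rwa [inv_mul_cancel₀ hne, one_smul] at this
    intro y hy
    by_cases hne : f x₀ y = 0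
    · obtain ⟨z, hz1, hz2⟩ := exists_sep hf.toLL _ hx
      have hz3 := hz2 u (Submodule.mem_span_singleton_self u)
      have h5 := h1 z hz3 (by rw [hz1]; exact one_ne_zero)
      have h6 := h1 (y + z) (by rw [hf.add_right, hy, hz3, add_zero])
        (by rw [hf.add_right, hne, hz1, zero_add]; exact one_ne_zero)
      have h7 := h6.add_right h5.neg
      rw [fr_add] at h7
      simpa using h7
    · exact h1 y hy hne
  have huc : u ∈ ctr M := by
    intro φ hφ
    obtain ⟨y, rfl⟩ := fr_surjective hf.toLL φ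
    exact hX y hφ
  have hyc : ∀ y, f u y ≠ 0 → y ∈ ctr M := by
    intro y hy
    obtain ⟨-, g, hg, h2⟩ := hfull y (f u y)⁻¹
    have h3 := ctr_conj huc hg
    rw [h2] at h3
    simp only [LinearMap.smul_apply, fr_apply, smul_eq_mul, inv_mul_cancel₀ hy, one_smul] at h3
    exact ((ctr M).add_mem_iff_right huc).1 h3
  rw [eq_top_iff]
  intro y _
  by_cases hy : f u y = 0
  · have hu' : u ∉ (⊥ : Submodule F (ι → F)) := by simpa using hu0
    obtain ⟨z, hz1, -⟩ := exists_sep hf.toLL _ hu'
    have h8 := hyc z (by rw [hz1]; exact one_ne_zero)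
    have h9 := hyc (y + z) (by rw [hf.add_right, hy, hz1, zero_add]; exact one_ne_zero)
    exact ((ctr M).add_mem_iff_left h8).1 h9
  · exact hyc y hy

theorem exists_not_span (A : (ι → F) →ₗ[F] (ι → F)) (h : ∀ c : F, A ≠ c • LinearMap.id) :
    ∃ v, v ≠ 0 ∧ A v ∉ Submodule.span F {v} := by
  by_contra hcon
  push Not at hcon
  obtain ⟨a, ha⟩ := LinearMap.exists_eq_smul_id_of_forall_notLinearIndependent (f := A) (by
    intro v hv
    by_cases h0 : v = 0
    · subst h0
      have := hv.ne_zero 0
      simp at this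
    · rw [LinearIndependent.pair_iff' h0] at hv
      obtain ⟨c, hc⟩ := Submodule.mem_span_singleton.1 (hcon v h0)
      exact hv c hc)
  exact h a ha

end Symp

end Cfsg.Agent.H29.Trv
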