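import Mathlib
import Cfsg.Agent.H5_AltBasis
import Cfsg.Prelude.Def_GeometricClasses

set_option autoImplicit false

/-! parity of the dimension of a symplectic space -/

namespace Cfsg.Agent.H29.Asc

open Cfsg.Geo

theorem even_of_symp {F : Type*} [Field F] {n : ℕ} {f : (Fin n → F) → (Fin n → F) → F}
    (hf : IsSymplecticForm f) : Even n := by
  classical
  let B : LinearMap.BilinForm F (Fin n → F) := LinearMap.mk₂ F f hf.bilinear.add_left hf.bilinear.smul_left
    hf.bilinear.add_right hf.bilinear.smul_right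
  have hA : B.IsAlt := hf.alternating
  obtain ⟨ι, κ, hι, hκ, hdι, b, h1, h2, h3, h4⟩ := Cfsg.Agent.H5.AltBasis.exists_basis n
    (Cfsg.Agent.H5.Frm.ofAlt B hA) (fun v => rfl) (by simp)
  have hκe : IsEmpty κ := by
    constructor
    intro k
    have hb := b.ne_zero (.inr k)
    obtain ⟨-, x, hx⟩ := hf.nondegenerate _ hb
    exact hx (h4 k x)
  have hc := Module.finrank_eq_card_basis b
  rw [Module.finrank_fintype_fun_eq_card, Fintype.card_fin, Fintype.card_sum, Fintype.card_sum,
    Fintype.card_eq_zero (α := κ)] at hc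
  exact ⟨Fintype.card ι, by omega⟩

end Cfsg.Agent.H29.Asc
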