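import Mathlib
import Cfsg.Prelude.Def_GeometricClasses

set_option autoImplicit false

/-!
Clifford theory for subalgebras of `End_F V` normalised by an irreducible group of automorphisms.
-/

namespace Cfsg.Agent.H29.Clifford

section General

variable {F V : Type*} [Field F] [AddCommGroup V] [Module F V]

/-- `h` normalises the subalgebra `R`. -/
def Normalises (R : Subalgebra F (Module.End F V)) (h : V ≃ₗ[F] V) : Prop :=
  (∀ r ∈ R, (h.symm : V →ₗ[F] V) ∘ₗ r ∘ₗ (h : V →ₗ[F] V) ∈ R) ∧
  (∀ r ∈ R, (h : V →ₗ[F] V) ∘ₗ r ∘ₗ (h.symm : V →ₗ[F] V) ∈ R)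

variable {R : Subalgebra F (Module.End F V)} {h : V ≃ₗ[F] V}

theorem Normalises.symm (hR : Normalises R h) : Normalises R h.symm :=
  ⟨fun r hr => by simpa using hR.2 r hr, fun r hr => by simpa using hR.1 r hr⟩

/-- The image of an `R`-submodule under `h` normalising `R`. -/
def conjSub (hR : Normalises R h) (W : Submodule R V) : Submodule R V where
  carrier := h '' (W : Set V)
  add_mem' := by
    rintro _ _ ⟨a, ha, rfl⟩ ⟨b, hb, rfl⟩
    exact ⟨a + b, W.add_mem ha hb, by simp⟩
  zero_mem' := ⟨0, W.zero_mem, by simp⟩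
  smul_mem' := by
    rintro ⟨r, hr⟩ _ ⟨w, hw, rfl⟩
    refine ⟨((h.symm : V →ₗ[F] V) ∘ₗ r ∘ₗ (h : V →ₗ[F] V)) w,
      W.smul_mem ⟨_, hR.1 r hr⟩ hw, ?_⟩
    simp [Subalgebra.smul_def]

theorem mem_conjSub (hR : Normalises R h) (W : Submodule R V) (x : V) :
    x ∈ conjSub hR W ↔ h.symm x ∈ W := by
  constructor
  · rintro ⟨w, hw, rfl⟩
    simpa using hw
  · intro hx
    exact ⟨h.symm x, hx, by simp⟩

/-- The order isomorphism of the lattice of `R`-submodules induced by `h`. -/
def conjIso (hR : Normalises R h) : Submodule R V ≃o Submodule R V where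
  toFun := conjSub hR
  invFun := conjSub hR.symm
  left_inv W := by ext x; simp [mem_conjSub]
  right_inv W := by ext x; simp [mem_conjSub]
  map_rel_iff' := by
    intro A B
    constructor
    · intro hAB x hx
      have := hAB (show h x ∈ conjSub hR A from ⟨x, hx, rfl⟩)
      simpa [mem_conjSub] using this
    · intro hAB x hx
      obtain ⟨w, hw, rfl⟩ := hx
      exact ⟨w, hAB hw, rfl⟩

theorem conjIso_apply (hR : Normalises R h) (W : Submodule R V) : conjIso hR W = conjSub hR W := rfl

/-- Isomorphic submodules have isomorphic images. -/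
theorem conj_iso_of_iso (hR : Normalises R h) {A B : Submodule R V} (e : A ≃ₗ[R] B) :
    Nonempty (conjSub hR A ≃ₗ[R] conjSub hR B) := by
  have key : ∀ (A B : Submodule R V) (e : A ≃ₗ[R] B), ∃ f : conjSub hR A →ₗ[R] conjSub hR B,
      ∀ x : conjSub hR A, ((f x : V)) = h (e ⟨h.symm x, (mem_conjSub hR A x).1 x.2⟩ : V) := by
    intro A B e
    refine ⟨{ toFun := fun x => ⟨h (e ⟨h.symm x, (mem_conjSub hR A x).1 x.2⟩ : V),
                  ⟨_, (e ⟨h.symm x, (mem_conjSub hR A x).1 x.2⟩).2, rfl⟩⟩
              map_add' := ?_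
              map_smul' := ?_ }, fun x => rfl⟩
    · intro x y
      apply Subtype.ext
      have : (⟨h.symm ((x + y : conjSub hR A) : V), (mem_conjSub hR A _).1 (x + y).2⟩ : A) =
          ⟨h.symm x, (mem_conjSub hR A x).1 x.2⟩ + ⟨h.symm y, (mem_conjSub hR A y).1 y.2⟩ := by
        apply Subtype.ext; simp
      exact (congrArg (fun z : A => h (e z : V)) this).trans (by rw [map_add]; simp)
    · rintro ⟨r, hr⟩ x
      apply Subtype.ext
      have hr' := hR.1 r hr
      have : (⟨h.symm (((⟨r, hr⟩ : R) • x : conjSub hR A) : V), (mem_conjSub hR A _).1 ((⟨r, hr⟩ : R) • x).2⟩ : A) =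
          (⟨_, hr'⟩ : R) • ⟨h.symm x, (mem_conjSub hR A x).1 x.2⟩ := by
        apply Subtype.ext; simp [Subalgebra.smul_def]
      exact (congrArg (fun z : A => h (e z : V)) this).trans (by rw [map_smul]; simp [Subalgebra.smul_def])
  obtain ⟨f, hf⟩ := key A B e
  obtain ⟨g, hg⟩ := key B A e.symm
  refine ⟨LinearEquiv.ofLinearMap f g ?_ ?_⟩
  · ext x
    have h1 := hf (g x)
    have h2 := hg x
    simp only [LinearMap.coe_comp, Function.comp_apply, LinearMap.id_coe, id_eq]
    rw [h1]
    have : (⟨h.symm (g x : V), (mem_conjSub hR A _).1 (g x).2⟩ : A) =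
        e.symm ⟨h.symm x, (mem_conjSub hR B x).1 x.2⟩ := by
      apply Subtype.ext
      show h.symm (g x : V) = _
      rw [h2]; simp
    rw [this]; simp
  · ext x
    have h1 := hg (f x)
    have h2 := hf x
    simp only [LinearMap.coe_comp, Function.comp_apply, LinearMap.id_coe, id_eq]
    rw [h1]
    have : (⟨h.symm (f x : V), (mem_conjSub hR B _).1 (f x).2⟩ : B) =
        e ⟨h.symm x, (mem_conjSub hR A x).1 x.2⟩ := by
      apply Subtype.ext
      show h.symm (f x : V) = _
      rw [h2]; simp
    rw [this]; simp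

theorem conj_iso_iff (hR : Normalises R h) {A B : Submodule R V} :
    Nonempty (conjSub hR A ≃ₗ[R] conjSub hR B) ↔ Nonempty (A ≃ₗ[R] B) := by
  constructor
  · rintro ⟨e⟩
    obtain ⟨f⟩ := conj_iso_of_iso hR.symm e
    have hA : conjSub hR.symm (conjSub hR A) = A := (conjIso hR).left_inv A
    have hB : conjSub hR.symm (conjSub hR B) = B := (conjIso hR).left_inv B
    exact ⟨(LinearEquiv.ofEq _ _ hA.symm).trans (f.trans (LinearEquiv.ofEq _ _ hB))⟩
  · rintro ⟨e⟩
    exact conj_iso_of_iso hR e

theorem conj_isotypicComponent (hR : Normalises R h) (S : Submodule R V) :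
    conjSub hR (isotypicComponent R V S) = isotypicComponent R V (conjSub hR S) := by
  unfold isotypicComponent
  rw [← conjIso_apply, OrderIso.map_sSup]
  apply le_antisymm
  · refine iSup₂_le fun m hm => le_sSup ?_
    exact (conj_iso_iff hR).2 hm
  · refine sSup_le fun m hm => ?_
    have h1 : conjSub hR (conjSub hR.symm m) = m := (conjIso hR).right_inv m
    have h2 : Nonempty (conjSub hR.symm m ≃ₗ[R] S) := by
      rw [← conj_iso_iff hR, h1]; exact hm
    have h3 := le_iSup₂ (f := fun (a : Submodule R V) (_ : a ∈ {m : Submodule R V | Nonempty (m ≃ₗ[R] S)}) =>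
      conjIso hR a) (conjSub hR.symm m) h2
    rwa [conjIso_apply, h1] at h3

theorem conj_simple (hR : Normalises R h) {S : Submodule R V} (hS : IsSimpleModule R S) :
    IsSimpleModule R (conjSub hR S) := by
  rw [isSimpleModule_iff_isAtom] at hS ⊢
  exact ((conjIso hR).isAtom_iff S).2 hS

theorem conj_mem_isotypicComponents (hR : Normalises R h) {c : Submodule R V}
    (hc : c ∈ isotypicComponents R V) : conjSub hR c ∈ isotypicComponents R V := by
  obtain ⟨S, hS, rfl⟩ := hc
  exact ⟨conjSub hR S, conj_simple hR hS, conj_isotypicComponent hR S⟩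

/-- restriction of scalars of the image -/
theorem conjSub_restrictScalars (hR : Normalises R h) (W : Submodule R V) :
    (conjSub hR W).restrictScalars F = (W.restrictScalars F).map (h : V →ₗ[F] V) := by
  ext x
  constructor
  · rintro ⟨w, hw, rfl⟩
    exact ⟨w, hw, rfl⟩
  · rintro ⟨w, hw, rfl⟩
    exact ⟨w, hw, rfl⟩

end General

section Irreducible

variable {F V : Type*} [Field F] [AddCommGroup V] [Module F V] [FiniteDimensional F V]
variable (R : Subalgebra F (Module.End F V)) (G : Set (V ≃ₗ[F] V))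

instance finite_R : Module.Finite R V :=
  Module.Finite.of_restrictScalars_finite F R V

instance noeth_R : IsNoetherian R V := by
  apply isNoetherian_of_tower F
  infer_instance

/-- Clifford: the module is semisimple. -/
theorem semisimple (hG : ∀ h ∈ G, Normalises R h) (hmul : ∀ a ∈ G, ∀ b ∈ G, b.trans a ∈ G)
    (hone : LinearEquiv.refl F V ∈ G)
    (hirr : ∀ W : Submodule F V, (∀ h ∈ G, W.map (h : V →ₗ[F] V) ≤ W) → W = ⊥ ∨ W = ⊤) :
    IsSemisimpleModule R V := by
  classical
  rcases subsingleton_or_nontrivial V with hV | hV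
  · infer_instance
  have hat : IsAtomic (Submodule R V) := by
    have : IsArtinian R V := isArtinian_of_tower F (inferInstance : IsArtinian F V)
    infer_instance
  obtain ⟨S, hS⟩ := IsAtomic.exists_atom (Submodule R V)
  -- the sum of all simple submodules
  let s : Set (Submodule R V) := {m | IsSimpleModule R m}
  have hsimp : ∀ m : s, IsSimpleModule R m := fun m => m.2
  have hinv : ∀ h ∈ G, ((sSup s).restrictScalars F).map (h : V →ₗ[F] V) ≤ (sSup s).restrictScalars F := by
    intro h hh
    rw [← conjSub_restrictScalars (hG h hh)]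
    have : conjSub (hG h hh) (sSup s) ≤ sSup s := by
      rw [← conjIso_apply, OrderIso.map_sSup]
      refine iSup₂_le fun m hm => le_sSup ?_
      exact conj_simple (hG h hh) hm
    intro x hx
    exact this hx
  rcases hirr _ hinv with h0 | h1
  · exfalso
    have hSs : S ≤ sSup s := le_sSup (isSimpleModule_iff_isAtom.2 hS)
    apply hS.1
    rw [eq_bot_iff]
    intro x hx
    have : x ∈ (sSup s).restrictScalars F := hSs hx
    rw [h0] at this
    simpa using this
  · have htop : sSup s = ⊤ := by
      rw [eq_top_iff]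
      intro x _
      have : x ∈ (⊤ : Submodule F V) := trivial
      rw [← h1] at this
      exact this
    exact isSemisimpleModule_of_isSemisimpleModule_submodule' (fun _ ↦ inferInstance)
      (sSup_eq_iSup' s ▸ htop)

/-- All isotypic components are conjugate. -/
theorem components_transitive (hG : ∀ h ∈ G, Normalises R h) (hmul : ∀ a ∈ G, ∀ b ∈ G, b.trans a ∈ G)
    (hone : LinearEquiv.refl F V ∈ G)
    (hirr : ∀ W : Submodule F V, (∀ h ∈ G, W.map (h : V →ₗ[F] V) ≤ W) → W = ⊥ ∨ W = ⊤)
    (c d : Submodule R V) (hc : c ∈ isotypicComponents R V) (hd : d ∈ isotypicComponents R V) :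
    ∃ h ∈ G, (d.restrictScalars F) = (c.restrictScalars F).map (h : V →ₗ[F] V) := by
  classical
  by_contra hcon
  push Not at hcon
  -- the sum of the conjugates of c
  let s : Set (Submodule R V) := {m | ∃ (h : V ≃ₗ[F] V) (hh : h ∈ G), m = conjSub (hG h hh) c}
  have hs : s ⊆ isotypicComponents R V := by
    rintro m ⟨h, hh, rfl⟩
    exact conj_mem_isotypicComponents _ hc
  have hds : d ∉ s := by
    rintro ⟨h, hh, he⟩
    apply hcon h hh
    rw [he, conjSub_restrictScalars]
  have hcs : c ∈ s := ⟨LinearEquiv.refl F V, hone, by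
    ext x; rw [mem_conjSub]; rfl⟩
  have hinv : ∀ h ∈ G, ((sSup s).restrictScalars F).map (h : V →ₗ[F] V) ≤ (sSup s).restrictScalars F := by
    intro h hh
    rw [← conjSub_restrictScalars (hG h hh)]
    have : conjSub (hG h hh) (sSup s) ≤ sSup s := by
      rw [← conjIso_apply, OrderIso.map_sSup]
      refine iSup₂_le fun m hm => le_sSup ?_
      obtain ⟨k, hk, rfl⟩ := hm
      refine ⟨k.trans h, hmul _ hh _ hk, ?_⟩
      ext x
      rw [conjIso_apply, mem_conjSub, mem_conjSub, mem_conjSub]
      rfl
    intro x hx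
    exact this hx
  rcases hirr _ hinv with h0 | h1
  · have hcS : c ≤ sSup s := le_sSup hcs
    apply (bot_lt_isotypicComponents hc).ne'
    rw [eq_bot_iff]
    intro x hx
    have : x ∈ (sSup s).restrictScalars F := hcS hx
    rw [h0] at this
    simpa using this
  · have htop : sSup s = ⊤ := by
      rw [eq_top_iff]
      intro x _
      have : x ∈ (⊤ : Submodule F V) := trivial
      rw [← h1] at this
      exact this
    have hind := sSupIndep_isotypicComponents (R := R) (M := V)
    have hsub : s ⊆ isotypicComponents R V \ {d} := fun m hm => ⟨hs hm, by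
      rintro rfl; exact hds hm⟩
    have h2 : Disjoint d (sSup s) := (hind hd).mono_right (sSup_le_sSup hsub)
    rw [htop] at h2
    apply (bot_lt_isotypicComponents hd).ne'
    simpa using h2

omit [FiniteDimensional F V] in
/-- In an isotypic semisimple module a central element fixing a non-zero vector fixes everything. -/
theorem fixed_all (hss : IsSemisimpleModule R V) (hiso : IsIsotypic R V) (a : Module.End F V) (haR : a ∈ R)
    (hcR : ∀ r ∈ R, r * a = a * r) (v : V) (hv0 : v ≠ 0) (hv : a v = v) : ∀ x, a x = x := by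
  let W : Submodule R V :=
    { carrier := {w | a w = w}
      add_mem' := by
        intro x y hx hy
        simp only [Set.mem_ofPred_eq] at hx hy ⊢
        rw [map_add, hx, hy]
      zero_mem' := by simp
      smul_mem' := by
        rintro ⟨r, hr⟩ x hx
        simp only [Set.mem_ofPred_eq] at hx ⊢
        have h1 := congrArg (fun f : Module.End F V => f x) (hcR r hr)
        simp only [Module.End.mul_apply, hx] at h1
        exact h1.symm }
  have hW : W ≠ ⊥ := by
    intro h
    apply hv0
    have : v ∈ W := hv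
    rw [h] at this
    simpa using this
  obtain ⟨S, hSW, hS⟩ := (IsSemisimpleModule.eq_bot_or_exists_simple_le W).resolve_left hW
  have htriv : ∀ T : Submodule R V, IsSimpleModule R T → T ≤ W := by
    intro T hT x hx
    obtain ⟨e⟩ := hiso S T
    have h1 : (e ⟨x, hx⟩ : V) ∈ W := hSW (e ⟨x, hx⟩).2
    have h2 : (⟨_, haR⟩ : R) • (e ⟨x, hx⟩) = e ⟨x, hx⟩ := by
      apply Subtype.ext
      exact h1
    rw [← map_smul] at h2
    have h3 := e.injective h2
    exact congrArg Subtype.val h3
  have htop : W = ⊤ := by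
    rw [eq_top_iff, ← IsSemisimpleModule.sSup_simples_eq_top R V]
    exact sSup_le fun T hT => htriv T hT
  intro x
  have : x ∈ W := by rw [htop]; trivial
  exact this

omit [FiniteDimensional F V] in
theorem isotypic_of_unique
    (hu : ∀ c ∈ isotypicComponents R V, ∀ d ∈ isotypicComponents R V, c = d) : IsIsotypic R V := by
  intro S hS T hT
  have h1 : isotypicComponent R V S ∈ isotypicComponents R V := ⟨S, hS, rfl⟩
  have h2 : isotypicComponent R V T ∈ isotypicComponents R V := ⟨T, hT, rfl⟩
  have h4 : isotypicComponent R V S = isotypicComponent R V T := hu _ h1 _ h2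
  have h5 := IsIsotypicOfType.isotypicComponent R V S
  exact (isIsotypicOfType_submodule_iff.mp h5) T (by rw [h4]; exact T.le_isotypicComponent)

end Irreducible

section Matrices

open Cfsg.Geo

variable {F : Type*} [Field F] {n : ℕ}

/-- The linear automorphism attached to an invertible matrix. -/
noncomputable def glEquiv (g : GL (Fin n) F) : (Fin n → F) ≃ₗ[F] (Fin n → F) :=
  LinearEquiv.ofLinearMap (Matrix.toLin' (g : Matrix (Fin n) (Fin n) F))
    (Matrix.toLin' ((g⁻¹ : GL (Fin n) F) : Matrix (Fin n) (Fin n) F))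
    (by rw [← Matrix.toLin'_mul, ← Units.val_mul, mul_inv_cancel, Units.val_one, Matrix.toLin'_one])
    (by rw [← Matrix.toLin'_mul, ← Units.val_mul, inv_mul_cancel, Units.val_one, Matrix.toLin'_one])

theorem glEquiv_coe (g : GL (Fin n) F) :
    ((glEquiv g : (Fin n → F) ≃ₗ[F] (Fin n → F)) : (Fin n → F) →ₗ[F] (Fin n → F)) =
      Matrix.toLin' (g : Matrix (Fin n) (Fin n) F) := rfl

theorem glEquiv_symm_coe (g : GL (Fin n) F) :
    (((glEquiv g).symm : (Fin n → F) ≃ₗ[F] (Fin n → F)) : (Fin n → F) →ₗ[F] (Fin n → F)) =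
      Matrix.toLin' ((g⁻¹ : GL (Fin n) F) : Matrix (Fin n) (Fin n) F) := rfl

/-- Clifford's theorem for a primitive irreducible group of matrices: the space is an isotypic
semisimple module for every normalised subalgebra. -/
theorem primitive_isotypic (G : Subgroup (GL (Fin n) F))
    (hirr : ActsIrreducibly (matrixSet G))
    (hprim : ∀ (m t : ℕ) (D : Fin t → Submodule F (Fin n → F)), 2 ≤ t → IsMDecomposition m D →
      ¬ G ≤ decompositionStabilizer D)
    (R : Subalgebra F (Module.End F (Fin n → F))) (hR : ∀ g ∈ G, Normalises R (glEquiv g)) :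
    IsSemisimpleModule R (Fin n → F) ∧ IsIsotypic R (Fin n → F) := by
  classical
  let G' : Set ((Fin n → F) ≃ₗ[F] (Fin n → F)) := {h | ∃ g ∈ G, h = glEquiv g}
  have hG : ∀ h ∈ G', Normalises R h := by
    rintro h ⟨g, hg, rfl⟩; exact hR g hg
  have hmul : ∀ a ∈ G', ∀ b ∈ G', b.trans a ∈ G' := by
    rintro a ⟨g, hg, rfl⟩ b ⟨k, hk, rfl⟩
    refine ⟨g * k, G.mul_mem hg hk, ?_⟩
    apply LinearEquiv.toLinearMap_injective
    rw [glEquiv_coe, Units.val_mul, Matrix.toLin'_mul]
    rfl
  have hone : LinearEquiv.refl F (Fin n → F) ∈ G' := by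
    refine ⟨1, G.one_mem, ?_⟩
    apply LinearEquiv.toLinearMap_injective
    rw [glEquiv_coe, Units.val_one, Matrix.toLin'_one]
    rfl
  have hirr' : ∀ W : Submodule F (Fin n → F), (∀ h ∈ G', W.map (h : (Fin n → F) →ₗ[F] (Fin n → F)) ≤ W) →
      W = ⊥ ∨ W = ⊤ := by
    intro W hW
    apply hirr W
    rintro _ ⟨g, hg, rfl⟩
    exact hW _ ⟨g, hg, rfl⟩
  have hss : IsSemisimpleModule R (Fin n → F) := semisimple R G' hG hmul hone hirr'
  refine ⟨hss, ?_⟩
  -- the components
  have : Finite (isotypicComponents R (Fin n → F)) := inferInstance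
  have hperm : ∀ g ∈ G, ∀ c ∈ isotypicComponents R (Fin n → F), ∃ d ∈ isotypicComponents R (Fin n → F),
      (c.restrictScalars F).map (Matrix.toLin' (g : Matrix (Fin n) (Fin n) F)) = d.restrictScalars F := by
    intro g hg c hc
    refine ⟨conjSub (hR g hg) c, conj_mem_isotypicComponents _ hc, ?_⟩
    rw [conjSub_restrictScalars]
    rfl
  obtain ⟨t, ⟨e⟩⟩ : ∃ t : ℕ, Nonempty (isotypicComponents R (Fin n → F) ≃ Fin t) :=
    ⟨Nat.card _, ⟨Finite.equivFin _⟩⟩
  by_cases ht : 2 ≤ t
  · exfalso
    let c₀ := e.symm ⟨0, by omega⟩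
    let D : Fin t → Submodule F (Fin n → F) := fun i => ((e.symm i : Submodule R (Fin n → F))).restrictScalars F
    have hinj : Function.Injective D := by
      intro i j hij
      apply e.symm.injective
      apply Subtype.ext
      exact Submodule.restrictScalars_injective F R (Fin n → F) hij
    apply hprim (Module.finrank F (D ⟨0, by omega⟩)) t D ht
    · refine ⟨ht, ?_, ?_, ?_, ?_⟩
      · have := bot_lt_isotypicComponents (e.symm ⟨0, by omega⟩ : isotypicComponents R (Fin n → F)).2
        have h2 : D ⟨0, by omega⟩ ≠ ⊥ := by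
          intro h
          apply this.ne'
          rw [eq_bot_iff]
          intro x hx
          have : x ∈ D ⟨0, by omega⟩ := hx
          rw [h] at this
          simpa using this
        rw [Module.finrank_pos_iff]
        exact (Submodule.nontrivial_iff_ne_bot).2 h2
      · intro i
        obtain ⟨h, hh, he⟩ := components_transitive R G' hG hmul hone hirr'
          (e.symm ⟨0, by omega⟩ : isotypicComponents R (Fin n → F)) (e.symm i : isotypicComponents R (Fin n → F))
          (e.symm ⟨0, by omega⟩ : isotypicComponents R (Fin n → F)).2 (e.symm i : isotypicComponents R (Fin n → F)).2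
        show Module.finrank F (((e.symm i : Submodule R (Fin n → F))).restrictScalars F) = _
        rw [he]
        exact LinearEquiv.finrank_map_eq h _
      · have hind := ((sSupIndep_iff _).1 (sSupIndep_isotypicComponents (R := R) (M := (Fin n → F))))
        have hind2 := hind.comp e.symm.injective
        rw [iSupIndep_def] at hind2 ⊢
        intro i
        have h3 := hind2 i
        rw [disjoint_iff] at h3 ⊢
        rw [eq_bot_iff]
        rintro x ⟨hx1, hx2⟩
        have h4 : x ∈ (⨆ (j) (_ : j ≠ i), ((e.symm j : Submodule R (Fin n → F)))) := by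
          have h5 : (⨆ (j) (_ : j ≠ i), D j) ≤
              (⨆ (j) (_ : j ≠ i), ((e.symm j : Submodule R (Fin n → F)))).restrictScalars F := by
            refine iSup₂_le fun j hj => ?_
            intro y hy
            exact (le_iSup₂ (f := fun (j : Fin t) (_ : j ≠ i) => ((e.symm j : Submodule R (Fin n → F)))) j hj) hy
          exact h5 hx2
        have h6 : x ∈ ((e.symm i : Submodule R (Fin n → F))) ⊓ (⨆ (j) (_ : j ≠ i), ((e.symm j : Submodule R (Fin n → F)))) :=
          ⟨hx1, h4⟩
        have h7 : ((e.symm i : Submodule R (Fin n → F))) ⊓ (⨆ (j) (_ : j ≠ i), ((e.symm j : Submodule R (Fin n → F)))) = ⊥ := h3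
        rw [h7] at h6
        simpa using h6
      · rw [eq_top_iff]
        intro x _
        have h1 : x ∈ (⊤ : Submodule R (Fin n → F)) := trivial
        rw [← sSup_isotypicComponents R (Fin n → F)] at h1
        have h8 : ∀ (s : Submodule R (Fin n → F)), s ∈ isotypicComponents R (Fin n → F) →
            s.restrictScalars F ≤ iSup D := by
          intro s hs
          have := le_iSup D (e ⟨s, hs⟩)
          simpa [D] using this
        -- build an R-submodule from iSup D
        have h9 : ∀ y ∈ sSup (isotypicComponents R (Fin n → F)), y ∈ iSup D := by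
          intro y hy
          rw [sSup_eq_iSup'] at hy
          refine Submodule.iSup_induction (fun s : isotypicComponents R (Fin n → F) => (s : Submodule R (Fin n → F)))
            (motive := fun y => y ∈ iSup D) hy ?_ ?_ ?_
          · intro s y hy
            exact h8 s s.2 hy
          · exact Submodule.zero_mem _
          · intro y z hy hz; exact Submodule.add_mem _ hy hz
        exact h9 x h1
    · intro g hg
      have hσ : ∀ i : Fin t, ∃ j : Fin t, (D i).map (Matrix.toLin' (g : Matrix (Fin n) (Fin n) F)) = D j := by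
        intro i
        obtain ⟨d, hd, he⟩ := hperm g hg (e.symm i : isotypicComponents R (Fin n → F)) (e.symm i : isotypicComponents R (Fin n → F)).2
        refine ⟨e ⟨d, hd⟩, ?_⟩
        simpa [D] using he
      choose σ hσ using hσ
      have hσinj : Function.Injective σ := by
        intro i j hij
        apply hinj
        have h1 := hσ i
        have h2 := hσ j
        rw [hij, ← h2] at h1
        exact Submodule.map_injective_of_injective (glEquiv g).injective h1
      refine ⟨Equiv.ofBijective σ ((Finite.injective_iff_bijective).1 hσinj), fun i => ?_⟩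
      exact hσ i
  · -- at most one component
    apply isotypic_of_unique
    intro c hc d hd
    have h3 : (⟨_, hc⟩ : isotypicComponents R (Fin n → F)) = ⟨_, hd⟩ := by
      apply e.injective
      have := (e ⟨_, hc⟩).2
      have := (e ⟨_, hd⟩).2
      apply Fin.ext
      omega
    exact congrArg Subtype.val h3

/-- `toLin'` of conjugation. -/
theorem normalises_adjoin (X : Set (GL (Fin n) F)) (g : GL (Fin n) F)
    (h1 : ∀ a ∈ X, g * a * g⁻¹ ∈ X) (h2 : ∀ a ∈ X, g⁻¹ * a * g ∈ X) :
    Normalises (Algebra.adjoin F {f : Module.End F (Fin n → F) | ∃ a ∈ X, f = Matrix.toLin' (a : Matrix (Fin n) (Fin n) F)})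
      (glEquiv g) := by
  have key : ∀ g : GL (Fin n) F, (∀ a ∈ X, g * a * g⁻¹ ∈ X) → ∀ r ∈ Algebra.adjoin F {f : Module.End F (Fin n → F) | ∃ a ∈ X, f = Matrix.toLin' (a : Matrix (Fin n) (Fin n) F)},
      (Matrix.toLin' (g : Matrix (Fin n) (Fin n) F)) ∘ₗ r ∘ₗ (Matrix.toLin' ((g⁻¹ : GL (Fin n) F) : Matrix (Fin n) (Fin n) F)) ∈
      Algebra.adjoin F {f : Module.End F (Fin n → F) | ∃ a ∈ X, f = Matrix.toLin' (a : Matrix (Fin n) (Fin n) F)} := by
    intro g hg r hr
    have hinv : (Matrix.toLin' ((g⁻¹ : GL (Fin n) F) : Matrix (Fin n) (Fin n) F)) ∘ₗ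
        (Matrix.toLin' (g : Matrix (Fin n) (Fin n) F)) = LinearMap.id := by
      rw [← Matrix.toLin'_mul, ← Units.val_mul, inv_mul_cancel, Units.val_one, Matrix.toLin'_one]
    have hinv' : (Matrix.toLin' (g : Matrix (Fin n) (Fin n) F)) ∘ₗ
        (Matrix.toLin' ((g⁻¹ : GL (Fin n) F) : Matrix (Fin n) (Fin n) F)) = LinearMap.id := by
      rw [← Matrix.toLin'_mul, ← Units.val_mul, mul_inv_cancel, Units.val_one, Matrix.toLin'_one]
    induction hr using Algebra.adjoin_induction with
    | mem x hx =>
      obtain ⟨a, ha, rfl⟩ := hx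
      apply Algebra.subset_adjoin
      refine ⟨g * a * g⁻¹, hg a ha, ?_⟩
      rw [Units.val_mul, Units.val_mul, Matrix.toLin'_mul, Matrix.toLin'_mul, LinearMap.comp_assoc]
    | algebraMap c =>
      have : (Matrix.toLin' (g : Matrix (Fin n) (Fin n) F)) ∘ₗ (algebraMap F (Module.End F (Fin n → F)) c) ∘ₗ (Matrix.toLin' ((g⁻¹ : GL (Fin n) F) : Matrix (Fin n) (Fin n) F)) =
          algebraMap F (Module.End F (Fin n → F)) c := by
        rw [Algebra.algebraMap_eq_smul_one]
        rw [LinearMap.smul_comp, LinearMap.comp_smul]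
        congr 1
      rw [this]
      exact Subalgebra.algebraMap_mem _ c
    | add x y hx hy ihx ihy =>
      rw [LinearMap.add_comp, LinearMap.comp_add]
      exact add_mem ihx ihy
    | mul x y hx hy ihx ihy =>
      have : (Matrix.toLin' (g : Matrix (Fin n) (Fin n) F)) ∘ₗ (x * y) ∘ₗ (Matrix.toLin' ((g⁻¹ : GL (Fin n) F) : Matrix (Fin n) (Fin n) F)) =
          ((Matrix.toLin' (g : Matrix (Fin n) (Fin n) F)) ∘ₗ x ∘ₗ (Matrix.toLin' ((g⁻¹ : GL (Fin n) F) : Matrix (Fin n) (Fin n) F))) *
          ((Matrix.toLin' (g : Matrix (Fin n) (Fin n) F)) ∘ₗ y ∘ₗ (Matrix.toLin' ((g⁻¹ : GL (Fin n) F) : Matrix (Fin n) (Fin n) F))) := by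
        have h3 : ((Matrix.toLin' (g : Matrix (Fin n) (Fin n) F)) ∘ₗ x ∘ₗ (Matrix.toLin' ((g⁻¹ : GL (Fin n) F) : Matrix (Fin n) (Fin n) F))) *
          ((Matrix.toLin' (g : Matrix (Fin n) (Fin n) F)) ∘ₗ y ∘ₗ (Matrix.toLin' ((g⁻¹ : GL (Fin n) F) : Matrix (Fin n) (Fin n) F))) =
          (Matrix.toLin' (g : Matrix (Fin n) (Fin n) F)) ∘ₗ x ∘ₗ ((Matrix.toLin' ((g⁻¹ : GL (Fin n) F) : Matrix (Fin n) (Fin n) F)) ∘ₗ
            (Matrix.toLin' (g : Matrix (Fin n) (Fin n) F))) ∘ₗ y ∘ₗ (Matrix.toLin' ((g⁻¹ : GL (Fin n) F) : Matrix (Fin n) (Fin n) F)) := rfl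
        rw [h3, hinv, LinearMap.id_comp]
        rfl
      rw [this]
      exact mul_mem ihx ihy
  constructor
  · intro r hr
    have h3 : ∀ a ∈ X, g⁻¹ * a * (g⁻¹)⁻¹ ∈ X := by
      intro a ha; rw [inv_inv]; exact h2 a ha
    have := key g⁻¹ h3 r hr
    rw [inv_inv] at this
    exact this
  · intro r hr
    exact key g h1 r hr

/-- In a primitive irreducible linear group, a non-identity element of a commutative normalised set
closed under the conjugations acts fixed-point-freely. -/
theorem abelian_fpf (G : Subgroup (GL (Fin n) F))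
    (hirr : ActsIrreducibly (matrixSet G))
    (hprim : ∀ (m t : ℕ) (D : Fin t → Submodule F (Fin n → F)), 2 ≤ t → IsMDecomposition m D →
      ¬ G ≤ decompositionStabilizer D)
    (A : Set (GL (Fin n) F)) (hnorm : ∀ g ∈ G, ∀ a ∈ A, g * a * g⁻¹ ∈ A)
    (hcomm : ∀ a ∈ A, ∀ b ∈ A, a * b = b * a) (a : GL (Fin n) F) (ha : a ∈ A) (ha1 : a ≠ 1)
    (v : Fin n → F) (hv : (a : Matrix (Fin n) (Fin n) F).mulVec v = v) : v = 0 := by
  classical
  by_contra hv0
  let X : Set (Module.End F (Fin n → F)) := {f | ∃ a ∈ A, f = Matrix.toLin' (a : Matrix (Fin n) (Fin n) F)}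
  let R := Algebra.adjoin F X
  have hR : ∀ g ∈ G, Normalises R (glEquiv g) := by
    intro g hg
    apply normalises_adjoin
    · exact hnorm g hg
    · intro a ha
      have := hnorm g⁻¹ (G.inv_mem hg) a ha
      rwa [inv_inv] at this
  obtain ⟨hss, hiso⟩ := primitive_isotypic G hirr hprim R hR
  have haR : Matrix.toLin' (a : Matrix (Fin n) (Fin n) F) ∈ R := Algebra.subset_adjoin ⟨a, ha, rfl⟩
  have hcR : ∀ r ∈ R, r * Matrix.toLin' (a : Matrix (Fin n) (Fin n) F) = Matrix.toLin' (a : Matrix (Fin n) (Fin n) F) * r := by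
    intro r hr
    induction hr using Algebra.adjoin_induction with
    | mem x hx =>
      obtain ⟨b, hb, rfl⟩ := hx
      have := hcomm b hb a ha
      have h1 : (b : Matrix (Fin n) (Fin n) F) * a = a * b := by
        rw [← Units.val_mul, ← Units.val_mul, this]
      show Matrix.toLin' (b : Matrix (Fin n) (Fin n) F) ∘ₗ Matrix.toLin' (a : Matrix (Fin n) (Fin n) F) =
        Matrix.toLin' (a : Matrix (Fin n) (Fin n) F) ∘ₗ Matrix.toLin' (b : Matrix (Fin n) (Fin n) F)
      rw [← Matrix.toLin'_mul, ← Matrix.toLin'_mul, h1]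
    | algebraMap c => exact (Algebra.commutes c _)
    | add x y hx hy ihx ihy => rw [add_mul, mul_add, ihx, ihy]
    | mul x y hx hy ihx ihy => rw [mul_assoc, ihy, ← mul_assoc, ihx, mul_assoc]
  have hall := fixed_all R hss hiso _ haR hcR v hv0 hv
  apply ha1
  apply Units.ext
  rw [Units.val_one]
  apply Matrix.toLin'.injective
  rw [Matrix.toLin'_one]
  apply LinearMap.ext
  intro x
  exact hall x

end Matrices

end Cfsg.Agent.H29.Clifford
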