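import Mathlib
import Cfsg.Agent.H29_Clifford

set_option autoImplicit false

/-! Simple algebras acting isotypically, matrix units -/

namespace Cfsg.Agent.H29.Asc

open Matrix

section Ring

variable {R V : Type*} [Ring R] [AddCommGroup V] [Module R V]

/-- a ring embedding (as a module) in a finite power of an isotypic semisimple module is simple -/
theorem simple_of_embedding [Nontrivial V] [Nontrivial R] {ι : Type*} [Finite ι]
    (hss : IsSemisimpleModule R V)
    (hiso : IsIsotypic R V) (f : R →ₗ[R] (ι → V)) (hf : Function.Injective f) :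
    IsSimpleRing R ∧ IsArtinianRing R := by
  classical
  rw [isSimpleRing_isArtinianRing_iff]
  have h1 : IsSemisimpleRing R := IsSemisimpleModule.of_injective f hf
  refine ⟨h1, ?_, inferInstance⟩
  have h2 : IsIsotypic R (ι → V) := by
    obtain ⟨S, hS⟩ := IsSemisimpleModule.exists_simple_submodule R V
    have hT : IsIsotypicOfType R V S := hiso S
    have key : IsIsotypicOfType R (ι → V) S := by
      intro m hm
      have : ∃ i, (LinearMap.proj i : (ι → V) →ₗ[R] V).comp m.subtype ≠ 0 := by
        by_contra hcon
        push Not at hcon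
        have hm0 : ∀ x : m, x = 0 := by
          intro x
          apply Subtype.ext
          funext i
          exact LinearMap.congr_fun (hcon i) x
        haveI := IsSimpleModule.nontrivial R m
        obtain ⟨x, hx⟩ := exists_ne (0 : m)
        exact hx (hm0 x)
      obtain ⟨i, hi⟩ := this
      have hinj := (LinearMap.injective_or_eq_zero
        ((LinearMap.proj i : (ι → V) →ₗ[R] V).comp m.subtype)).resolve_right hi
      have e := LinearEquiv.ofInjective _ hinj
      haveI : IsSimpleModule R (LinearMap.range
        ((LinearMap.proj i : (ι → V) →ₗ[R] V).comp m.subtype)) := IsSimpleModule.congr e.symm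
      obtain ⟨e2⟩ := hT (LinearMap.range ((LinearMap.proj i : (ι → V) →ₗ[R] V).comp m.subtype))
      exact ⟨e.trans e2⟩
    exact key.isIsotypic
  exact h2.of_injective f hf

end Ring

section Alg

variable {F V : Type*} [Field F] [AddCommGroup V] [Module F V] [FiniteDimensional F V]
variable (R : Subalgebra F (Module.End F V))

theorem simple_of_isotypic [Nontrivial V] (hss : IsSemisimpleModule R V)
    (hiso : IsIsotypic R V) : IsSimpleRing R ∧ IsArtinianRing R := by
  let b := Module.finBasis F V
  let f : R →ₗ[R] (Fin (Module.finrank F V) → V) :=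
    { toFun := fun r i => (r : Module.End F V) (b i)
      map_add' := by
        intro x y
        funext i
        simp
      map_smul' := by
        intro r x
        funext i
        rfl }
  refine simple_of_embedding hss hiso f ?_
  intro x y hxy
  apply Subtype.ext
  apply b.ext
  intro i
  exact congrFun hxy i

/-- a simple algebra of operators over a finite field, with scalar centre, is a matrix algebra -/
theorem exists_matrix_equiv [Finite F] (hs : IsSimpleRing R) (ha : IsArtinianRing R)
    (hc : ∀ z ∈ R, (∀ r ∈ R, z * r = r * z) → ∃ c : F, z = c • (1 : Module.End F V)) :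
    ∃ w : ℕ, 0 < w ∧ Nonempty (R ≃ₐ[F] Matrix (Fin w) (Fin w) F) := by
  obtain ⟨w, hw, D, hD, hA, hfin, ⟨e⟩⟩ := IsSimpleRing.exists_algEquiv_matrix_divisionRing_finite F R
  have hw0 : 0 < w := Nat.pos_of_ne_zero hw.out
  haveI : Finite D := Module.finite_of_finite F
  letI : Field D := littleWedderburn D
  have hsurj : ∀ d : D, ∃ c : F, algebraMap F D c = d := by
    intro d
    have hcomm : ∀ x y : D, x * y = y * x := fun x y => mul_comm x y
    obtain ⟨c, hc'⟩ := hc (e.symm (Matrix.scalar (Fin w) d)) (e.symm _).2 (by
      intro r hr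
      have h1 : e.symm (Matrix.scalar (Fin w) d) * ⟨r, hr⟩ = ⟨r, hr⟩ * e.symm (Matrix.scalar (Fin w) d) := by
        apply e.injective
        rw [map_mul, map_mul, e.apply_symm_apply]
        exact Matrix.scalar_commute d (fun y => hcomm d y) _
      exact congrArg Subtype.val h1)
    refine ⟨c, ?_⟩
    have h2 : e.symm (Matrix.scalar (Fin w) d) = algebraMap F R c := by
      apply Subtype.ext
      rw [hc']
      rfl
    have h3 : Matrix.scalar (Fin w) d = algebraMap F (Matrix (Fin w) (Fin w) D) c := by
      rw [← e.commutes c, ← h2, e.apply_symm_apply]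
    have h4 := congrFun (congrFun h3 ⟨0, hw0⟩) ⟨0, hw0⟩
    simpa [Matrix.algebraMap_matrix_apply] using h4.symm
  have hbij : Function.Bijective (algebraMap F D) := ⟨(algebraMap F D).injective, hsurj⟩
  let eD : F ≃ₐ[F] D := AlgEquiv.ofBijective (Algebra.ofId F D) hbij
  exact ⟨w, hw0, ⟨e.trans (AlgEquiv.mapMatrix eD).symm⟩⟩

end Alg

section Units

variable {F V : Type*} [Field F] [AddCommGroup V] [Module F V] [FiniteDimensional F V]

/-- a representation of a matrix algebra is a multiple of the standard one -/
theorem exists_basis_of_rep {κ : Type*} [Fintype κ] [DecidableEq κ] (k0 : κ)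
    (φ : Matrix κ κ F →ₐ[F] Module.End F V) :
    ∃ (t : ℕ) (b : Module.Basis (κ × Fin t) F V), ∀ (i j : κ) (k : κ) (l : Fin t),
      φ (single i j 1) (b (k, l)) = if j = k then b (i, l) else 0 := by
  have hmul : ∀ (i j k l : κ) (v : V), φ (single i j 1) (φ (single k l 1) v) =
      if j = k then φ (single i l 1) v else 0 := by
    intro i j k l v
    rw [← Module.End.mul_apply, ← map_mul]
    by_cases h : j = k
    · subst h
      rw [Matrix.single_mul_single_same, if_pos rfl, one_mul]
    · rw [Matrix.single_mul_single_of_ne _ _ _ _ h, if_neg h, map_zero, LinearMap.zero_apply]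
  have hone : ∀ v : V, v = ∑ i, φ (single i i 1) v := by
    intro v
    have h1 : (1 : Matrix κ κ F) = ∑ i, single i i 1 := by
      ext a b
      rw [Matrix.sum_apply]
      simp only [Matrix.single_apply, Matrix.one_apply]
      by_cases hab : a = b
      · subst hab
        simp
      · rw [if_neg hab]
        symm
        apply Finset.sum_eq_zero
        intro i _
        rw [if_neg]
        rintro ⟨rfl, rfl⟩
        exact hab rfl
    have h2 : φ (1 : Matrix κ κ F) v = v := by rw [map_one]; rfl
    conv_lhs => rw [← h2, h1, map_sum, LinearMap.sum_apply]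
  let V0 : Submodule F V := LinearMap.range (φ (single k0 k0 1))
  let t := Module.finrank F V0
  let u := Module.finBasis F V0
  have hu : ∀ l, φ (single k0 k0 1) (u l : V) = u l := by
    intro l
    obtain ⟨x, hx⟩ := (u l).2
    rw [← hx, hmul, if_pos rfl]
  let b : κ × Fin t → V := fun p => φ (single p.1 k0 1) (u p.2 : V)
  have hb : ∀ (i j : κ) (k : κ) (l : Fin t),
      φ (single i j 1) (b (k, l)) = if j = k then b (i, l) else 0 := fun i j k l => hmul i j k k0 _
  have hli : LinearIndependent F b := by
    rw [Fintype.linearIndependent_iff]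
    intro c hc
    rintro ⟨j, l⟩
    have h1 : φ (single k0 j 1) (∑ p, c p • b p) = 0 := by rw [hc, map_zero]
    rw [map_sum, Fintype.sum_prod_type, Finset.sum_eq_single j] at h1
    · have h2 : ∑ l, c (j, l) • (u l : V) = 0 := by
        rw [← h1]
        apply Finset.sum_congr rfl
        intro l _
        rw [map_smul, hb, if_pos rfl]
        show _ = c (j, l) • φ (single k0 k0 1) (u l : V)
        rw [hu]
      have h3 : ∑ l, c (j, l) • u l = 0 := by
        apply Subtype.ext
        simpa using h2
      exact Fintype.linearIndependent_iff.1 u.linearIndependent _ h3 l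
    · intro k _ hk
      apply Finset.sum_eq_zero
      intro l _
      rw [map_smul, hb, if_neg (Ne.symm hk), smul_zero]
    · simp
  have hspan : ⊤ ≤ Submodule.span F (Set.range b) := by
    intro v _
    rw [hone v]
    apply Submodule.sum_mem
    intro i _
    have h1 : φ (single i i 1) v = φ (single i k0 1) (φ (single k0 i 1) v) := by
      rw [hmul, if_pos rfl]
    have h2 : φ (single k0 i 1) v ∈ V0 := by
      refine ⟨φ (single k0 i 1) v, ?_⟩
      rw [hmul, if_pos rfl]
    have h3 : (⟨_, h2⟩ : V0) = ∑ l, u.repr ⟨_, h2⟩ l • u l := (u.sum_repr _).symm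
    have h4 : φ (single k0 i 1) v = ∑ l, u.repr ⟨_, h2⟩ l • (u l : V) := by
      have h5 := congrArg Subtype.val h3
      simp only [Submodule.coe_sum, Submodule.coe_smul] at h5
      exact h5
    rw [h1, h4, map_sum]
    apply Submodule.sum_mem
    intro l _
    rw [map_smul]
    exact Submodule.smul_mem _ _ (Submodule.subset_span ⟨(i, l), rfl⟩)
  refine ⟨t, Module.Basis.mk hli hspan, ?_⟩
  intro i j k l
  simp only [Module.Basis.mk_apply]
  exact hb i j k l

end Units

/-- Skolem-Noether for matrix algebras -/
theorem skolem_noether {F : Type*} [Field F] {κ : Type*} [Fintype κ] [DecidableEq κ]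
    (f : Matrix κ κ F ≃ₐ[F] Matrix κ κ F) :
    ∃ g : GL κ F, ∀ x, f x = (g : Matrix κ κ F) * x * ((g⁻¹ : GL κ F) : Matrix κ κ F) := by
  let E : Matrix κ κ F ≃ₐ[F] Module.End F (κ → F) := Matrix.toLinAlgEquiv'
  obtain ⟨T, hT⟩ := AlgEquiv.eq_linearEquivConjAlgEquiv (E.symm.trans (f.trans E))
  let g : GL κ F :=
    { val := E.symm (T : (κ → F) →ₗ[F] (κ → F))
      inv := E.symm (T.symm : (κ → F) →ₗ[F] (κ → F))
      val_inv := by
        rw [← map_mul]
        have : (T : (κ → F) →ₗ[F] (κ → F)) * (T.symm : (κ → F) →ₗ[F] (κ → F)) = 1 := by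
          apply LinearMap.ext; intro x; simp
        rw [this, map_one]
      inv_val := by
        rw [← map_mul]
        have : (T.symm : (κ → F) →ₗ[F] (κ → F)) * (T : (κ → F) →ₗ[F] (κ → F)) = 1 := by
          apply LinearMap.ext; intro x; simp
        rw [this, map_one] }
  refine ⟨g, fun x => ?_⟩
  apply E.injective
  have h1 := AlgEquiv.congr_fun hT (E x)
  simp only [AlgEquiv.trans_apply, E.symm_apply_apply] at h1
  rw [h1, map_mul, map_mul]
  show _ = E (E.symm (T : (κ → F) →ₗ[F] (κ → F))) * E x * E (E.symm (T.symm : (κ → F) →ₗ[F] (κ → F)))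
  rw [E.apply_symm_apply, E.apply_symm_apply]
  rfl

end Cfsg.Agent.H29.Asc
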