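import Mathlib
import Cfsg.Agent.H29_Asc1

set_option autoImplicit false

/-! prime degree subfields -/

namespace Cfsg.Agent.H29.Asc

open Matrix Module

theorem exists_subgroup_prime_index {G : Type*} [CommGroup G] [Finite G] [IsCyclic G]
    (h : 1 < Nat.card G) : ∃ (r : ℕ) (S : Subgroup G), r.Prime ∧ S.index = r := by
  obtain ⟨r, hr, hd⟩ := Nat.exists_prime_and_dvd (n := Nat.card G) (by omega)
  refine ⟨r, (powMonoidHom r : G →* G).range, hr, ?_⟩
  rw [IsCyclic.index_powMonoidHom_range, Nat.gcd_eq_right hd]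

section
variable (K L : Type*) [Field K] [Field L] [Algebra K L] [Finite L]

/-- existence of an intermediate field of prime degree -/
theorem exists_intermediate_bottom (h : 1 < finrank K L) :
    ∃ (r : ℕ) (E : IntermediateField K L), r.Prime ∧ finrank K E = r := by
  haveI : Finite K := Finite.of_injective _ (algebraMap K L).injective
  haveI : IsGalois K L := inferInstance
  letI : CommGroup (L ≃ₐ[K] L) := IsCyclic.commGroup
  have hcard : Nat.card (L ≃ₐ[K] L) = finrank K L := IsGalois.card_aut_eq_finrank K L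
  obtain ⟨r, S, hr, hS⟩ := exists_subgroup_prime_index (G := (L ≃ₐ[K] L)) (by rw [hcard]; exact h)
  refine ⟨r, IntermediateField.fixedField S, hr, ?_⟩
  have h1 := IntermediateField.finrank_fixedField_eq_card S
  have h2 := finrank_mul_finrank K (IntermediateField.fixedField S) L
  have h3 := S.index_mul_card
  rw [hcard, hS] at h3
  rw [h1, ← h3] at h2
  exact Nat.eq_of_mul_eq_mul_right Nat.card_pos h2

/-- existence of an intermediate field of prime codegree -/
theorem exists_intermediate_top (h : 1 < finrank K L) :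
    ∃ (r : ℕ) (E : IntermediateField K L), r.Prime ∧ finrank E L = r := by
  haveI : Finite K := Finite.of_injective _ (algebraMap K L).injective
  haveI : IsGalois K L := inferInstance
  have hcard : Nat.card (L ≃ₐ[K] L) = finrank K L := IsGalois.card_aut_eq_finrank K L
  obtain ⟨r, hr, hd⟩ := Nat.exists_prime_and_dvd (n := Nat.card (L ≃ₐ[K] L)) (by omega)
  haveI : Fact r.Prime := ⟨hr⟩
  obtain ⟨g, hg⟩ := exists_prime_orderOf_dvd_card' (G := (L ≃ₐ[K] L)) r hd
  refine ⟨r, IntermediateField.fixedField (Subgroup.zpowers g), hr, ?_⟩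
  rw [IntermediateField.finrank_fixedField_eq_card, Nat.card_zpowers, hg]

/-- automorphisms preserve intermediate fields -/
theorem intermediate_invariant (E : IntermediateField K L) (σ : L →ₐ[K] L) {x : L} (hx : x ∈ E) :
    σ x ∈ E := by
  haveI : Finite K := Finite.of_injective _ (algebraMap K L).injective
  haveI : Finite E := Finite.of_injective _ (Subtype.val_injective (p := fun x => x ∈ E))
  haveI : IsGalois K E := inferInstance
  have h := AlgHom.fieldRange_of_normal (σ.comp E.val)
  have h1 : σ x ∈ (σ.comp E.val).fieldRange := ⟨⟨x, hx⟩, rfl⟩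
  rwa [h] at h1

end

/-- prime degree subfield of a commutative field subalgebra, invariant under everything -/
theorem exists_prime_subfield {F A : Type*} [Field F] [Ring A] [Algebra F A] [Finite A]
    [Nontrivial A]
    (C : Subalgebra F A) (hC : IsField C) (h1 : 1 < finrank F C) :
    ∃ (r : ℕ) (K : Subalgebra F A), r.Prime ∧ K ≤ C ∧ finrank F K = r ∧
      (∀ x ∈ K, ∀ y ∈ K, x * y = y * x) ∧ (∀ x ∈ K, x ≠ 0 → ∃ y ∈ K, x * y = 1) ∧
      ∀ σ : A ≃ₐ[F] A, (∀ x ∈ C, σ x ∈ C) → ∀ x ∈ K, σ x ∈ K := by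
  letI : Field C := { hC.toField with }
  haveI : Finite C := inferInstance
  obtain ⟨r, E, hr, hE⟩ := exists_intermediate_bottom F C h1
  refine ⟨r, E.toSubalgebra.map C.val, hr, ?_, ?_, ?_, ?_, ?_⟩
  · rintro _ ⟨x, -, rfl⟩
    exact x.2
  · rw [← hE]
    exact ((E.toSubalgebra.equivMapOfInjective C.val Subtype.val_injective).toLinearEquiv.finrank_eq).symm
  · rintro _ ⟨x, -, rfl⟩ _ ⟨y, -, rfl⟩
    exact congrArg Subtype.val (mul_comm x y)
  · rintro _ ⟨x, hx, rfl⟩ hx0
    have hx0' : x ≠ 0 := fun h => hx0 (by rw [h]; rfl)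
    refine ⟨(x⁻¹ : C), ⟨x⁻¹, E.inv_mem hx, rfl⟩, ?_⟩
    have := mul_inv_cancel₀ hx0'
    exact congrArg Subtype.val this
  · rintro σ hσ _ ⟨x, hx, rfl⟩
    let σC : C →ₐ[F] C := (σ.toAlgHom.comp C.val).codRestrict C (fun x => hσ x x.2)
    have h2 := intermediate_invariant F C E σC hx
    exact ⟨σC x, h2, rfl⟩

end Cfsg.Agent.H29.Asc
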