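import Mathlib
import Cfsg.Agent.H29_Asc2

set_option autoImplicit false

/-! normalised subalgebras of primitive groups with no extension field structure -/

namespace Cfsg.Agent.H29.Asc

open Matrix Module Cfsg.Agent.H29.Clifford Cfsg.Geo

variable {F : Type*} [Field F] {n : ℕ}

/-- conjugation by an invertible matrix on operators -/
noncomputable def cjA (g : GL (Fin n) F) :
    Module.End F (Fin n → F) ≃ₐ[F] Module.End F (Fin n → F) := (glEquiv g).conjAlgEquiv F

theorem cjA_apply (g : GL (Fin n) F) (r : Module.End F (Fin n → F)) :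
    cjA g r = (glEquiv g : (Fin n → F) →ₗ[F] (Fin n → F)) ∘ₗ r ∘ₗ
      ((glEquiv g).symm : (Fin n → F) →ₗ[F] (Fin n → F)) := rfl

theorem cjA_symm_apply (g : GL (Fin n) F) (r : Module.End F (Fin n → F)) :
    (cjA g).symm r = ((glEquiv g).symm : (Fin n → F) →ₗ[F] (Fin n → F)) ∘ₗ r ∘ₗ
      (glEquiv g : (Fin n → F) →ₗ[F] (Fin n → F)) := rfl

/-- operators and matrices -/
noncomputable abbrev tl (n : ℕ) (F : Type*) [Field F] :
    Matrix (Fin n) (Fin n) F ≃ₐ[F] Module.End F (Fin n → F) := Matrix.toLinAlgEquiv'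

theorem cjA_tl (g : GL (Fin n) F) (m : Matrix (Fin n) (Fin n) F) :
    cjA g (tl n F m) = tl n F ((g : Matrix (Fin n) (Fin n) F) * m *
      ((g⁻¹ : GL (Fin n) F) : Matrix (Fin n) (Fin n) F)) := by
  rw [map_mul, map_mul]
  rfl

/-- `R` is normalised by `g` in terms of `cjA` -/
theorem normalises_iff {R : Subalgebra F (Module.End F (Fin n → F))} {g : GL (Fin n) F} :
    Normalises R (glEquiv g) ↔ (∀ r ∈ R, (cjA g).symm r ∈ R) ∧ (∀ r ∈ R, cjA g r ∈ R) := Iff.rfl

theorem center_field {A : Type*} [Ring A] [IsSimpleRing A] [Algebra F A] :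
    IsField (Subalgebra.center F A) := by
  have h := IsSimpleRing.isField_center A
  exact h

/-- the key algebra lemma: a normalised algebra of operators is a full matrix algebra -/
theorem matrix_algebra [Finite F] (hn : 0 < n) (G : Subgroup (GL (Fin n) F))
    (hirr : ActsIrreducibly (matrixSet G))
    (hprim : ∀ (m t : ℕ) (D : Fin t → Submodule F (Fin n → F)), 2 ≤ t → IsMDecomposition m D →
      ¬ G ≤ decompositionStabilizer D)
    (hfld : ∀ (r : ℕ) (K : Subalgebra F (Matrix (Fin n) (Fin n) F)), r.Prime →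
      IsFieldSubalgebra r K → ¬ G ≤ subalgebraNormalizer K)
    (R : Subalgebra F (Module.End F (Fin n → F))) (hR : ∀ g ∈ G, Normalises R (glEquiv g)) :
    ∃ w : ℕ, 0 < w ∧ Nonempty (R ≃ₐ[F] Matrix (Fin w) (Fin w) F) := by
  classical
  haveI : Nonempty (Fin n) := ⟨⟨0, hn⟩⟩
  haveI : Nontrivial (Fin n → F) := inferInstance
  obtain ⟨hss, hiso⟩ := primitive_isotypic G hirr hprim R hR
  obtain ⟨hs, ha⟩ := simple_of_isotypic R hss hiso
  refine exists_matrix_equiv R hs ha ?_
  haveI : Finite (Module.End F (Fin n → F)) := Module.finite_of_finite F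
  let C : Subalgebra F (Module.End F (Fin n → F)) := (Subalgebra.center F R).map R.val
  have hCmem : ∀ z, z ∈ C ↔ z ∈ R ∧ ∀ r ∈ R, z * r = r * z := by
    intro z
    constructor
    · rintro ⟨y, hy, rfl⟩
      refine ⟨y.2, fun r hr => ?_⟩
      have := (Subalgebra.mem_center_iff.1 hy) ⟨r, hr⟩
      exact (congrArg Subtype.val this).symm
    · rintro ⟨hz, hzc⟩
      refine ⟨⟨z, hz⟩, ?_, rfl⟩
      refine Subalgebra.mem_center_iff.2 fun r => ?_
      exact Subtype.ext (hzc r r.2).symm
  have hCf : IsField C := by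
    have e : Subalgebra.center F R ≃ₐ[F] C :=
      (Subalgebra.center F R).equivMapOfInjective R.val Subtype.val_injective
    exact MulEquiv.isField (center_field (F := F) (A := R)) e.symm.toMulEquiv
  by_cases h1 : 1 < finrank F C
  · exfalso
    obtain ⟨r, K, hr, hKC, hKr, hKc, hKi, hKσ⟩ := exists_prime_subfield C hCf h1
    let K' : Subalgebra F (Matrix (Fin n) (Fin n) F) := K.comap (tl n F : _ →ₐ[F] _)
    have hK'mem : ∀ m, m ∈ K' ↔ tl n F m ∈ K := fun m => Iff.rfl
    refine hfld r K' hr ⟨?_, ?_, ?_⟩ ?_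
    · intro x hx y hy
      apply (tl n F).injective
      rw [map_mul, map_mul]
      exact hKc _ hx _ hy
    · intro x hx hx0
      obtain ⟨y, hy, hxy⟩ := hKi (tl n F x) hx (by
        intro h
        exact hx0 ((tl n F).injective (by rw [h, map_zero])))
      refine ⟨(tl n F).symm y, ?_, ?_⟩
      · rw [hK'mem, AlgEquiv.apply_symm_apply]
        exact hy
      · apply (tl n F).injective
        rw [map_mul, AlgEquiv.apply_symm_apply, hxy, map_one]
    · rw [← hKr]
      let eK : K' ≃ₗ[F] K :=
        { toFun := fun x => ⟨tl n F x, x.2⟩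
          map_add' := by intro x y; exact Subtype.ext (map_add (tl n F) _ _)
          map_smul' := by intro c x; exact Subtype.ext (map_smul (tl n F) _ _)
          invFun := fun y => ⟨(tl n F).symm y, by
            rw [hK'mem, AlgEquiv.apply_symm_apply]; exact y.2⟩
          left_inv := fun x => Subtype.ext ((tl n F).symm_apply_apply _)
          right_inv := fun y => Subtype.ext ((tl n F).apply_symm_apply _) }
      exact eK.finrank_eq
    · intro g hg k
      have hCinv : ∀ g ∈ G, ∀ x ∈ C, cjA g x ∈ C := by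
        intro g hg x hx
        rw [hCmem] at hx ⊢
        obtain ⟨h1, h2⟩ := normalises_iff.1 (hR g hg)
        refine ⟨h2 x hx.1, fun r hr => ?_⟩
        have h3 := hx.2 _ (h1 r hr)
        have h4 := congrArg (cjA g) h3
        rwa [map_mul, map_mul, AlgEquiv.apply_symm_apply] at h4
      constructor
      · intro hk
        rw [hK'mem, ← cjA_tl]
        exact hKσ _ (hCinv g hg) _ hk
      · intro hk
        rw [hK'mem, ← cjA_tl] at hk
        have := hKσ _ (hCinv g⁻¹ (G.inv_mem hg)) _ hk
        rw [cjA_tl, cjA_tl] at this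
        rw [hK'mem]
        convert this using 2
        simp [mul_assoc]
  · intro z hz hzc
    have hzC : z ∈ C := (hCmem z).2 ⟨hz, hzc⟩
    have h2 : finrank F C = 1 := by
      have : 0 < finrank F C := by
        haveI : Nontrivial C := ⟨0, 1, hCf.exists_pair_ne.elim (fun x hx => by
          intro h01
          obtain ⟨y, hxy⟩ := hx
          apply hxy
          have e1 : x = x * 1 := (mul_one x).symm
          have e2 : y = y * 1 := (mul_one y).symm
          rw [e1, e2, ← h01, mul_zero, mul_zero])⟩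
        exact Module.finrank_pos (R := F) (M := C)
      omega
    rw [finrank_eq_one_iff_of_nonzero' (1 : C) (by
      intro h
      have h0 : (1 : Module.End F (Fin n → F)) = 0 := congrArg Subtype.val h
      exact one_ne_zero h0)] at h2
    obtain ⟨c, hc⟩ := h2 ⟨z, hzC⟩
    exact ⟨c, (congrArg Subtype.val hc).symm⟩

end Cfsg.Agent.H29.Asc
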