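import Mathlib
import Cfsg.Agent.H29_Asc3

set_option autoImplicit false

/-! tensor decompositions from normalised matrix algebras -/

namespace Cfsg.Agent.H29.Asc

open Matrix Module Cfsg.Agent.H29.Clifford Cfsg.Geo
open scoped Kronecker

variable {F : Type*} [Field F] {n : ℕ}

/-- an invertible matrix attached to a basis -/
theorem exists_GL_basis {κ : Type*} [Fintype κ] [DecidableEq κ] (b : Module.Basis κ F (Fin n → F))
    (e : Fin n ≃ κ) : ∃ P : GL (Fin n) F, ∀ i,
      (P : Matrix (Fin n) (Fin n) F) *ᵥ (Pi.single i 1) = b (e i) := by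
  let b' : Module.Basis (Fin n) F (Fin n → F) := b.reindex e.symm
  let L : (Fin n → F) ≃ₗ[F] (Fin n → F) := (Pi.basisFun F (Fin n)).equiv b' (Equiv.refl _)
  have hL : ∀ i, L (Pi.single i 1) = b (e i) := by
    intro i
    have := (Pi.basisFun F (Fin n)).equiv_apply i b' (Equiv.refl _)
    rw [Pi.basisFun_apply] at this
    rw [this]
    simp [b']
  refine ⟨⟨(tl n F).symm (L : (Fin n → F) →ₗ[F] _), (tl n F).symm (L.symm : (Fin n → F) →ₗ[F] _),
    ?_, ?_⟩, fun i => ?_⟩
  · rw [← map_mul]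
    have : (L : (Fin n → F) →ₗ[F] (Fin n → F)) * (L.symm : (Fin n → F) →ₗ[F] (Fin n → F)) = 1 := by
      apply LinearMap.ext; intro x; simp
    rw [this, map_one]
  · rw [← map_mul]
    have : (L.symm : (Fin n → F) →ₗ[F] (Fin n → F)) * (L : (Fin n → F) →ₗ[F] (Fin n → F)) = 1 := by
      apply LinearMap.ext; intro x; simp
    rw [this, map_one]
  · rw [← hL i]
    exact LinearMap.congr_fun
      ((tl n F).apply_symm_apply (L : (Fin n → F) →ₗ[F] (Fin n → F))) (Pi.single i 1)

theorem card_eq_of_basis {κ : Type*} [Fintype κ] (b : Module.Basis κ F (Fin n → F)) :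
    Fintype.card κ = n := by
  have h1 := Module.finrank_eq_card_basis b
  rw [Module.finrank_fintype_fun_eq_card, Fintype.card_fin] at h1
  exact h1.symm

/-- the automorphism of the matrix algebra induced by a normalising element -/
theorem exists_inner (R : Subalgebra F (Module.End F (Fin n → F))) {w : ℕ}
    (e : R ≃ₐ[F] Matrix (Fin w) (Fin w) F) (g : GL (Fin n) F) (hg : Normalises R (glEquiv g)) :
    ∃ a : GL (Fin w) F, ∀ x : Matrix (Fin w) (Fin w) F, cjA g (e.symm x : Module.End F (Fin n → F)) =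
      (e.symm ((a : Matrix (Fin w) (Fin w) F) * x * ((a⁻¹ : GL (Fin w) F) : Matrix (Fin w) (Fin w) F)) :
        Module.End F (Fin n → F)) := by
  obtain ⟨h1, h2⟩ := normalises_iff.1 hg
  let c : R ≃ₐ[F] R :=
    { toFun := fun r => ⟨cjA g r, h2 r r.2⟩
      invFun := fun r => ⟨(cjA g).symm r, h1 r r.2⟩
      left_inv := fun r => Subtype.ext ((cjA g).symm_apply_apply _)
      right_inv := fun r => Subtype.ext ((cjA g).apply_symm_apply _)
      map_mul' := fun r s => Subtype.ext (map_mul (cjA g) _ _)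
      map_add' := fun r s => Subtype.ext (map_add (cjA g) _ _)
      commutes' := fun r => Subtype.ext ((cjA g).commutes r) }
  obtain ⟨a, ha⟩ := skolem_noether (e.symm.trans (c.trans e))
  refine ⟨a, fun x => ?_⟩
  rw [← ha x]
  simp only [AlgEquiv.trans_apply, AlgEquiv.symm_apply_apply]
  rfl

/-- operators commuting with the matrix units act on the multiplicity space -/
theorem commuting_form {w t : ℕ} (hw : 0 < w) (φ : Matrix (Fin w) (Fin w) F →ₐ[F] Module.End F (Fin n → F))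
    (b : Module.Basis (Fin w × Fin t) F (Fin n → F))
    (hb : ∀ (i j k : Fin w) (l : Fin t), φ (single i j 1) (b (k, l)) = if j = k then b (i, l) else 0)
    (u : Module.End F (Fin n → F)) (hu : ∀ x, u * φ x = φ x * u) :
    ∃ c : Matrix (Fin t) (Fin t) F, ∀ k l, u (b (k, l)) = ∑ j, c j l • b (k, j) := by
  have h0 : ∀ l, u (b (⟨0, hw⟩, l)) = ∑ j, (b.repr (u (b (⟨0, hw⟩, l))) (⟨0, hw⟩, j)) • b (⟨0, hw⟩, j) := by
    intro l
    have h1 : u (b (⟨0, hw⟩, l)) = φ (single ⟨0, hw⟩ ⟨0, hw⟩ 1) (u (b (⟨0, hw⟩, l))) := by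
      have h2 := LinearMap.congr_fun (hu (single ⟨0, hw⟩ ⟨0, hw⟩ 1)) (b (⟨0, hw⟩, l))
      rw [Module.End.mul_apply, Module.End.mul_apply, hb, if_pos rfl] at h2
      exact h2
    conv_lhs => rw [h1]
    conv_lhs => rw [← b.sum_repr (u (b (⟨0, hw⟩, l))), map_sum, Fintype.sum_prod_type]
    rw [Finset.sum_eq_single ⟨0, hw⟩]
    · apply Finset.sum_congr rfl
      intro j _
      rw [map_smul, hb, if_pos rfl]
    · intro i _ hi
      apply Finset.sum_eq_zero
      intro j _
      rw [map_smul, hb, if_neg (Ne.symm hi), smul_zero]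
    · simp
  refine ⟨fun j l => b.repr (u (b (⟨0, hw⟩, l))) (⟨0, hw⟩, j), fun k l => ?_⟩
  have h3 : b (k, l) = φ (single k ⟨0, hw⟩ 1) (b (⟨0, hw⟩, l)) := by rw [hb, if_pos rfl]
  rw [h3]
  have h4 := LinearMap.congr_fun (hu (single k ⟨0, hw⟩ 1)) (b (⟨0, hw⟩, l))
  rw [Module.End.mul_apply, Module.End.mul_apply] at h4
  rw [h4, h0 l, map_sum]
  apply Finset.sum_congr rfl
  intro j _
  rw [map_smul, hb, if_pos rfl]

theorem phi_form {w t : ℕ} (φ : Matrix (Fin w) (Fin w) F →ₐ[F] Module.End F (Fin n → F))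
    (b : Module.Basis (Fin w × Fin t) F (Fin n → F))
    (hb : ∀ (i j k : Fin w) (l : Fin t), φ (single i j 1) (b (k, l)) = if j = k then b (i, l) else 0)
    (x : Matrix (Fin w) (Fin w) F) (k : Fin w) (l : Fin t) :
    φ x (b (k, l)) = ∑ i, x i k • b (i, l) := by
  have h1 : x = ∑ i, ∑ j, x i j • single i j (1 : F) := by
    conv_lhs => rw [Matrix.matrix_eq_sum_single x]
    simp [Matrix.smul_single]
  conv_lhs => rw [h1]
  simp only [map_sum, map_smul, LinearMap.sum_apply, LinearMap.smul_apply, hb]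
  apply Finset.sum_congr rfl
  intro i _
  rw [Finset.sum_eq_single k]
  · rw [if_pos rfl]
  · intro j _ hj
    rw [if_neg hj, smul_zero]
  · simp

/-- Main lemma: a group normalising a matrix algebra preserves a tensor decomposition. -/
theorem tensor_of_matrix_algebra (hn : 0 < n) (R : Subalgebra F (Module.End F (Fin n → F))) {w : ℕ}
    (hw : 0 < w) (e : R ≃ₐ[F] Matrix (Fin w) (Fin w) F) :
    ∃ (t : ℕ) (ε : Fin n ≃ Fin w × Fin t) (P : GL (Fin n) F), w * t = n ∧
      ∀ g : GL (Fin n) F, Normalises R (glEquiv g) → g ∈ tensorProductSubgroup w t ε P := by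
  classical
  let φ : Matrix (Fin w) (Fin w) F →ₐ[F] Module.End F (Fin n → F) := R.val.comp e.symm.toAlgHom
  have hφ : ∀ x, φ x = (e.symm x : Module.End F (Fin n → F)) := fun x => rfl
  obtain ⟨t, b, hb⟩ := exists_basis_of_rep (⟨0, hw⟩ : Fin w) φ
  have hcard := card_eq_of_basis b
  rw [Fintype.card_prod, Fintype.card_fin, Fintype.card_fin] at hcard
  let ε : Fin n ≃ Fin w × Fin t := (Fintype.equivOfCardEq (by
    rw [Fintype.card_prod, Fintype.card_fin, Fintype.card_fin, Fintype.card_fin, hcard]))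
  obtain ⟨P, hP⟩ := exists_GL_basis b ε
  refine ⟨t, ε, P, hcard, fun g hg => ?_⟩
  obtain ⟨a, ha⟩ := exists_inner R e g hg
  -- the commuting part
  let u : Module.End F (Fin n → F) := φ ((a⁻¹ : GL (Fin w) F) : Matrix (Fin w) (Fin w) F) *
    tl n F (g : Matrix (Fin n) (Fin n) F)
  have hgl : tl n F (g : Matrix (Fin n) (Fin n) F) * tl n F ((g⁻¹ : GL (Fin n) F) : Matrix (Fin n) (Fin n) F) = 1 := by
    rw [← map_mul, ← Units.val_mul, mul_inv_cancel, Units.val_one, map_one]
  have hgl' : tl n F ((g⁻¹ : GL (Fin n) F) : Matrix (Fin n) (Fin n) F) * tl n F (g : Matrix (Fin n) (Fin n) F) = 1 := by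
    rw [← map_mul, ← Units.val_mul, inv_mul_cancel, Units.val_one, map_one]
  have hcj : ∀ r, cjA g r * tl n F (g : Matrix (Fin n) (Fin n) F) = tl n F (g : Matrix (Fin n) (Fin n) F) * r := by
    intro r
    have h1 : cjA g r = tl n F (g : Matrix (Fin n) (Fin n) F) * r * tl n F ((g⁻¹ : GL (Fin n) F) : Matrix (Fin n) (Fin n) F) := rfl
    rw [h1, mul_assoc, hgl', mul_one]
  have hu : ∀ x, u * φ x = φ x * u := by
    intro x
    have h1 := hcj (φ x)
    have h2 : cjA g (φ x) = φ ((a : Matrix (Fin w) (Fin w) F) * x * ((a⁻¹ : GL (Fin w) F) : Matrix (Fin w) (Fin w) F)) := ha x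
    rw [h2] at h1
    show φ _ * tl n F _ * φ x = φ x * (φ _ * tl n F _)
    have h3 : ((a⁻¹ : GL (Fin w) F) : Matrix (Fin w) (Fin w) F) * ((a : Matrix (Fin w) (Fin w) F) * x *
        ((a⁻¹ : GL (Fin w) F) : Matrix (Fin w) (Fin w) F)) = x * ((a⁻¹ : GL (Fin w) F) : Matrix (Fin w) (Fin w) F) := by
      rw [← mul_assoc, ← mul_assoc, ← Units.val_mul, inv_mul_cancel, Units.val_one, one_mul]
    rw [mul_assoc, ← h1, ← mul_assoc, ← map_mul, h3, map_mul, mul_assoc]
  obtain ⟨c, hc⟩ := commuting_form hw φ b hb u hu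
  have hgb : ∀ k l, (g : Matrix (Fin n) (Fin n) F) *ᵥ (b (k, l)) =
      ∑ i, ∑ j, ((a : Matrix (Fin w) (Fin w) F) i k * c j l) • b (i, j) := by
    intro k l
    have h1 : tl n F (g : Matrix (Fin n) (Fin n) F) = φ (a : Matrix (Fin w) (Fin w) F) * u := by
      show _ = φ _ * (φ _ * tl n F _)
      rw [← mul_assoc, ← map_mul, ← Units.val_mul, mul_inv_cancel, Units.val_one, map_one, one_mul]
    have h2 : (g : Matrix (Fin n) (Fin n) F) *ᵥ (b (k, l)) = tl n F (g : Matrix (Fin n) (Fin n) F) (b (k, l)) := rfl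
    rw [h2, h1, Module.End.mul_apply, hc, map_sum, Finset.sum_comm]
    apply Finset.sum_congr rfl
    intro j _
    rw [map_smul, phi_form φ b hb, Finset.smul_sum]
    apply Finset.sum_congr rfl
    intro i _
    rw [smul_smul, mul_comm]
  -- matrix identity
  let K : Matrix (Fin w × Fin t) (Fin w × Fin t) F := (a : Matrix (Fin w) (Fin w) F) ⊗ₖ c
  have hmat : (g : Matrix (Fin n) (Fin n) F) * (P : Matrix (Fin n) (Fin n) F) =
      (P : Matrix (Fin n) (Fin n) F) * K.submatrix ε ε := by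
    have hcol : ∀ i, (P : Matrix (Fin n) (Fin n) F) *ᵥ (Pi.single i 1) = b (ε i) := hP
    apply Matrix.toLin'.injective
    apply (Pi.basisFun F (Fin n)).ext
    intro k
    rw [Pi.basisFun_apply, Matrix.toLin'_apply, Matrix.toLin'_apply, ← Matrix.mulVec_mulVec,
      ← Matrix.mulVec_mulVec, hcol]
    have h1 : ε k = ((ε k).1, (ε k).2) := rfl
    rw [h1, hgb]
    have h2 : (K.submatrix ε ε) *ᵥ (Pi.single k 1) = ∑ i, K (ε i) (ε k) • (Pi.single i (1 : F) : Fin n → F) := by
      funext j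
      rw [Matrix.mulVec_single_one]
      simp [Finset.sum_apply, Pi.single_apply]
    rw [h2]
    have h3 : ∀ (s : Finset (Fin n)) (v : Fin n → (Fin n → F)),
        (P : Matrix (Fin n) (Fin n) F) *ᵥ (∑ i ∈ s, v i) = ∑ i ∈ s, (P : Matrix (Fin n) (Fin n) F) *ᵥ (v i) :=
      fun s v => map_sum (Matrix.mulVecLin (P : Matrix (Fin n) (Fin n) F)) v s
    rw [h3]
    simp only [Matrix.mulVec_smul, hcol]
    rw [← Equiv.sum_comp ε.symm, Fintype.sum_prod_type]
    apply Finset.sum_congr rfl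
    intro i _
    apply Finset.sum_congr rfl
    intro j _
    rw [ε.apply_symm_apply]
    rfl
  have hPP : (P : Matrix (Fin n) (Fin n) F) * ((P⁻¹ : GL (Fin n) F) : Matrix (Fin n) (Fin n) F) = 1 := by
    rw [← Units.val_mul, mul_inv_cancel, Units.val_one]
  have hdet : K.det ≠ 0 := by
    have h1 : (K.submatrix ε ε).det = K.det := Matrix.det_submatrix_equiv_self ε K
    intro h0
    have h2 := congrArg Matrix.det hmat
    rw [Matrix.det_mul, Matrix.det_mul, h1, h0, mul_zero] at h2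
    have h3 : (g : Matrix (Fin n) (Fin n) F).det ≠ 0 := by
      have := (Matrix.GeneralLinearGroup.det g).ne_zero
      simpa using this
    have h4 : (P : Matrix (Fin n) (Fin n) F).det ≠ 0 := by
      have := (Matrix.GeneralLinearGroup.det P).ne_zero
      simpa using this
    exact mul_ne_zero h3 h4 h2
  have hcdet : c.det ≠ 0 := by
    intro h0
    apply hdet
    show ((a : Matrix (Fin w) (Fin w) F) ⊗ₖ c).det = 0
    rw [Matrix.det_kronecker, h0, Fintype.card_fin, Fintype.card_fin, zero_pow hw.ne', mul_zero]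
  let c' : GL (Fin t) F := Matrix.GeneralLinearGroup.mkOfDetNeZero c hcdet
  let K' : GL (Fin w × Fin t) F := Matrix.GeneralLinearGroup.mkOfDetNeZero K hdet
  refine ⟨glReindex ε.symm K', ⟨K', ⟨a, c', rfl⟩, rfl⟩, ?_⟩
  apply Units.ext
  show (P : Matrix (Fin n) (Fin n) F) * K.submatrix ε ε * ((P⁻¹ : GL (Fin n) F) : Matrix (Fin n) (Fin n) F) = g
  rw [← hmat, mul_assoc, hPP, mul_one]

theorem finrank_of_equiv (R : Subalgebra F (Module.End F (Fin n → F))) {w : ℕ}
    (e : R ≃ₐ[F] Matrix (Fin w) (Fin w) F) : finrank F R = w * w := by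
  rw [e.toLinearEquiv.finrank_eq, Module.finrank_matrix]
  simp

/-- swapping the tensor factors -/
theorem tensor_swap {w t : ℕ} (ε : Fin n ≃ Fin w × Fin t) (P : GL (Fin n) F) :
    tensorProductSubgroup w t ε P ≤ tensorProductSubgroup t w (ε.trans (Equiv.prodComm _ _)) P := by
  rintro _ ⟨_, ⟨k, ⟨a, b, hk⟩, rfl⟩, rfl⟩
  have hkk : (glReindex ε.symm k : GL (Fin n) F) =
      glReindex (ε.trans (Equiv.prodComm _ _)).symm (glReindex (Equiv.prodComm _ _) k) := by
    apply Units.ext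
    ext i j
    rfl
  refine ⟨_, ⟨glReindex (Equiv.prodComm _ _) k, ⟨b, a, ?_⟩, rfl⟩, ?_⟩
  · ext ⟨i, j⟩ ⟨i', j'⟩
    show (k : Matrix (Fin w × Fin t) (Fin w × Fin t) F) (j, i) (j', i') = _
    rw [hk]
    simp [Matrix.kroneckerMap_apply, mul_comm]
  · exact congrArg (MulAut.conj P) hkk.symm

/-- equal factors: contained in the tensor wreath subgroup -/
theorem tensor_le_wreath {m : ℕ} (ε : Fin n ≃ Fin m × Fin m) (P : GL (Fin n) F) :
    tensorProductSubgroup m m ε P ≤
      tensorWreathSubgroup m 2 (ε.trans (finTwoArrowEquiv (Fin m)).symm) P := by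
  rintro _ ⟨_, ⟨k, ⟨a, b, hk⟩, rfl⟩, rfl⟩
  have hkk : (glReindex ε.symm k : GL (Fin n) F) =
      glReindex (ε.trans (finTwoArrowEquiv (Fin m)).symm).symm
        (glReindex (finTwoArrowEquiv (Fin m)).symm k) := by
    apply Units.ext
    ext i j
    show _ = (k : Matrix _ _ F) (finTwoArrowEquiv (Fin m) ((finTwoArrowEquiv (Fin m)).symm (ε i)))
      (finTwoArrowEquiv (Fin m) ((finTwoArrowEquiv (Fin m)).symm (ε j)))
    rw [Equiv.apply_symm_apply, Equiv.apply_symm_apply]
    rfl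
  refine ⟨_, ⟨glReindex (finTwoArrowEquiv (Fin m)).symm k, Subgroup.subset_closure (Or.inl
    ⟨![a, b], ?_⟩), rfl⟩, ?_⟩
  · intro x y
    show (k : Matrix (Fin m × Fin m) (Fin m × Fin m) F) (x 0, x 1) (y 0, y 1) = _
    rw [hk, Fin.prod_univ_two]
    rfl
  · exact congrArg (MulAut.conj P) hkk.symm

end Cfsg.Agent.H29.Asc
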