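import Mathlib
import Cfsg.Prelude.Def_GeometricClasses

set_option autoImplicit false

/-! forms attached to matrices; uniqueness of invariant forms -/

namespace Cfsg.Agent.H29.AscF

open Matrix Module Cfsg.Geo

variable {ι : Type} [Fintype ι] [DecidableEq ι] {F : Type*} [Field F]

/-- the form attached to a matrix, semilinear in the second variable -/
def sf (τ : F →+* F) (M : Matrix ι ι F) (u v : ι → F) : F := u ⬝ᵥ (M *ᵥ (τ ∘ v))

theorem comp_mulVec (τ : F →+* F) (g : Matrix ι ι F) (v : ι → F) :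
    τ ∘ (g *ᵥ v) = (g.map τ) *ᵥ (τ ∘ v) := by
  funext i
  simp [Matrix.mulVec, dotProduct, map_sum]

theorem sf_mulVec (τ : F →+* F) (M g h : Matrix ι ι F) (u v : ι → F) :
    sf τ M (g *ᵥ u) (h *ᵥ v) = sf τ (gᵀ * M * h.map τ) u v := by
  unfold sf
  rw [comp_mulVec, Matrix.mulVec_mulVec, Matrix.dotProduct_mulVec, Matrix.dotProduct_mulVec,
    ← Matrix.vecMul_transpose, Matrix.vecMul_vecMul, Matrix.mul_assoc]

theorem comp_single (τ : F →+* F) (j : ι) : τ ∘ (Pi.single j (1 : F)) = Pi.single j (1 : F) := by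
  funext i
  by_cases h : i = j
  · subst h; simp
  · simp [h]

theorem sf_single (τ : F →+* F) (M : Matrix ι ι F) (i j : ι) :
    sf τ M (Pi.single i 1) (Pi.single j 1) = M i j := by
  unfold sf
  rw [comp_single]
  simp

theorem sf_injective (τ : F →+* F) {M N : Matrix ι ι F} (h : ∀ u v, sf τ M u v = sf τ N u v) : M = N := by
  ext i j
  rw [← sf_single τ M i j, h, sf_single]

theorem sf_add_left (τ : F →+* F) (M : Matrix ι ι F) (x y v : ι → F) :
    sf τ M (x + y) v = sf τ M x v + sf τ M y v := by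
  simp [sf, add_dotProduct]

theorem sf_smul_left (τ : F →+* F) (M : Matrix ι ι F) (c : F) (x v : ι → F) :
    sf τ M (c • x) v = c * sf τ M x v := by
  simp [sf, smul_dotProduct]

theorem comp_add (τ : F →+* F) (v w : ι → F) : τ ∘ (v + w) = τ ∘ v + τ ∘ w := by
  funext i; simp

theorem comp_smul (τ : F →+* F) (c : F) (w : ι → F) : τ ∘ (c • w) = τ c • (τ ∘ w) := by
  funext i; simp

theorem sf_add_right (τ : F →+* F) (M : Matrix ι ι F) (v x y : ι → F) :
    sf τ M v (x + y) = sf τ M v x + sf τ M v y := by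
  simp [sf, comp_add, Matrix.mulVec_add]

theorem sf_smul_right (τ : F →+* F) (M : Matrix ι ι F) (c : F) (v x : ι → F) :
    sf τ M v (c • x) = τ c * sf τ M v x := by
  simp [sf, comp_smul, Matrix.mulVec_smul]

theorem sf_smul (τ : F →+* F) (M : Matrix ι ι F) (c : F) (v x : ι → F) :
    sf τ (c • M) v x = c * sf τ M v x := by
  simp [sf, Matrix.smul_mulVec]

/-- every biadditive form with the right homogeneity comes from a matrix -/
theorem exists_matrix (τ : F →+* F) (f : (ι → F) → (ι → F) → F)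
    (h1 : ∀ x y v, f (x + y) v = f x v + f y v) (h2 : ∀ (c : F) x v, f (c • x) v = c * f x v)
    (h3 : ∀ v x y, f v (x + y) = f v x + f v y) (h4 : ∀ (c : F) v x, f v (c • x) = τ c * f v x) :
    ∀ u v, f u v = sf τ (Matrix.of fun i j => f (Pi.single i 1) (Pi.single j 1)) u v := by
  intro u v
  have hz1 : ∀ v, f 0 v = 0 := by intro v; have := h2 0 0 v; simpa using this
  have hz2 : ∀ v, f v 0 = 0 := by intro v; have := h4 0 v 0; simpa using this
  have hs1 : ∀ (s : Finset ι) (g : ι → (ι → F)) (w : ι → F), f (∑ i ∈ s, g i) w = ∑ i ∈ s, f (g i) w := by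
    intro s g w
    classical
    induction s using Finset.induction_on with
    | empty => simp [hz1]
    | insert a s ha ih => rw [Finset.sum_insert ha, Finset.sum_insert ha, h1, ih]
  have hs2 : ∀ (s : Finset ι) (g : ι → (ι → F)) (w : ι → F), f w (∑ i ∈ s, g i) = ∑ i ∈ s, f w (g i) := by
    intro s g w
    classical
    induction s using Finset.induction_on with
    | empty => simp [hz2]
    | insert a s ha ih => rw [Finset.sum_insert ha, Finset.sum_insert ha, h3, ih]
  have hu : u = ∑ i, u i • (Pi.single i (1 : F) : ι → F) := by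
    conv_lhs => rw [pi_eq_sum_univ' u]
  have hv : v = ∑ i, v i • (Pi.single i (1 : F) : ι → F) := by
    conv_lhs => rw [pi_eq_sum_univ' v]
  conv_lhs => rw [hu, hs1]
  unfold sf
  rw [dotProduct]
  apply Finset.sum_congr rfl
  intro i _
  rw [h2]
  congr 1
  conv_lhs => rw [hv, hs2]
  simp only [h4, Matrix.mulVec, dotProduct, Matrix.of_apply, Function.comp_apply]
  apply Finset.sum_congr rfl
  intro j _
  ring

/-- a form matrix is invertible as soon as the form is non-degenerate on the right -/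
theorem det_ne_zero_of_nondeg {σ : F ≃+* F} {M : Matrix ι ι F}
    (h : ∀ v, v ≠ 0 → ∃ x, sf (σ : F →+* F) M x v ≠ 0) : M.det ≠ 0 := by
  intro h0
  obtain ⟨v, hv, hMv⟩ := Matrix.exists_mulVec_eq_zero_iff.2 h0
  have hv' : (σ.symm : F → F) ∘ v ≠ 0 := by
    intro h1
    apply hv
    funext i
    have := congrFun h1 i
    simpa using this
  obtain ⟨x, hx⟩ := h _ hv'
  apply hx
  unfold sf
  have : (σ : F →+* F) ∘ ((σ.symm : F → F) ∘ v) = v := by
    funext i; simp
  rw [this, hMv]
  simp

theorem nondeg_of_det {σ : F ≃+* F} {M : Matrix ι ι F} (h : M.det ≠ 0) :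
    IsNondegenerateForm (sf (σ : F →+* F) M) := by
  intro v hv
  constructor
  · by_contra hcon
    push Not at hcon
    have h1 : M *ᵥ ((σ : F →+* F) ∘ v) = 0 := by
      funext i
      have := hcon (Pi.single i 1)
      unfold sf at this
      simpa using this
    apply h
    rw [← Matrix.exists_mulVec_eq_zero_iff]
    refine ⟨(σ : F →+* F) ∘ v, ?_, h1⟩
    intro h2
    apply hv
    funext i
    have := congrFun h2 i
    simpa using this
  · by_contra hcon
    push Not at hcon
    have h1 : v ᵥ* M = 0 := by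
      funext i
      have := hcon (Pi.single i 1)
      unfold sf at this
      rw [comp_single, Matrix.dotProduct_mulVec] at this
      simpa using this
    apply h
    rw [← Matrix.exists_vecMul_eq_zero_iff]
    exact ⟨v, hv, h1⟩

/-- fixing a form in terms of matrices -/
theorem fixes_iff (τ : F →+* F) (M g : Matrix ι ι F) :
    (∀ u v, sf τ M (g *ᵥ u) (g *ᵥ v) = sf τ M u v) ↔ gᵀ * M * g.map τ = M := by
  constructor
  · intro h
    apply sf_injective τ
    intro u v
    rw [← sf_mulVec, h]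
  · intro h u v
    rw [sf_mulVec, h]

/-- uniqueness of the invariant form -/
theorem form_unique {P : Subgroup (GL ι F)} (hP : ActsAbsolutelyIrreducibly (matrixSet P))
    (τ : F →+* F) {M N : Matrix ι ι F} (hM : M.det ≠ 0)
    (h1 : ∀ x ∈ P, ((x : GL ι F) : Matrix ι ι F)ᵀ * M * ((x : GL ι F) : Matrix ι ι F).map τ = M)
    (h2 : ∀ x ∈ P, ((x : GL ι F) : Matrix ι ι F)ᵀ * N * ((x : GL ι F) : Matrix ι ι F).map τ = N) :
    ∃ c : F, N = c • M := by
  have hu : IsUnit M.det := isUnit_iff_ne_zero.2 hM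
  have hcomm : ∀ x ∈ P, (N * M⁻¹)ᵀ * ((x : GL ι F) : Matrix ι ι F) =
      ((x : GL ι F) : Matrix ι ι F) * (N * M⁻¹)ᵀ := by
    intro x hx
    have hxt : ((x : GL ι F) : Matrix ι ι F)ᵀ * (N * M⁻¹) = (N * M⁻¹) * ((x : GL ι F) : Matrix ι ι F)ᵀ := by
      have hdx : IsUnit ((x : Matrix ι ι F)).det := (Matrix.isUnit_iff_isUnit_det _).1 x.isUnit
      have hdx' : IsUnit (((x : Matrix ι ι F)).map τ).det := by
        have := hdx.map τ
        rwa [RingHom.map_det] at this
      -- M⁻¹ xᵀ = x^τ⁻¹ M⁻¹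
      have e1 : ((x : Matrix ι ι F).map τ) * M⁻¹ * ((x : Matrix ι ι F))ᵀ = M⁻¹ := by
        have h3 : M⁻¹ * (((x : GL ι F) : Matrix ι ι F)ᵀ * M * ((x : GL ι F) : Matrix ι ι F).map τ) = 1 := by
          rw [h1 x hx, Matrix.nonsing_inv_mul _ hu]
        have h4 : (M⁻¹ * ((x : GL ι F) : Matrix ι ι F)ᵀ * M) * ((x : GL ι F) : Matrix ι ι F).map τ = 1 := by
          rw [← h3]; simp only [mul_assoc]
        have h5 := mul_eq_one_comm.1 h4
        calc ((x : Matrix ι ι F).map τ) * M⁻¹ * ((x : Matrix ι ι F))ᵀ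
            = ((x : Matrix ι ι F).map τ) * (M⁻¹ * ((x : Matrix ι ι F))ᵀ * M) * M⁻¹ := by
              simp only [mul_assoc]; rw [Matrix.mul_nonsing_inv _ hu, mul_one]
          _ = M⁻¹ := by rw [h5, one_mul]
      calc ((x : GL ι F) : Matrix ι ι F)ᵀ * (N * M⁻¹)
          = ((x : GL ι F) : Matrix ι ι F)ᵀ * N * (((x : Matrix ι ι F).map τ) * M⁻¹ * ((x : Matrix ι ι F))ᵀ) := by
            rw [e1, mul_assoc]
        _ = (((x : GL ι F) : Matrix ι ι F)ᵀ * N * ((x : Matrix ι ι F).map τ)) * M⁻¹ * ((x : Matrix ι ι F))ᵀ := by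
            simp only [mul_assoc]
        _ = _ := by rw [h2 x hx]
    have := congrArg Matrix.transpose hxt
    rw [Matrix.transpose_mul _ (N * M⁻¹), Matrix.transpose_mul (N * M⁻¹), Matrix.transpose_transpose] at this
    exact this
  obtain ⟨c, hc⟩ := hP.2 (N * M⁻¹)ᵀ (by
    rintro _ ⟨x, hx, rfl⟩
    exact hcomm x hx)
  refine ⟨c, ?_⟩
  have h3 : N * M⁻¹ = c • (1 : Matrix ι ι F) := by
    have := congrArg Matrix.transpose hc
    rwa [Matrix.transpose_transpose, Matrix.transpose_smul, Matrix.transpose_one] at this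
  calc N = N * M⁻¹ * M := by rw [mul_assoc, Matrix.nonsing_inv_mul _ hu, mul_one]
    _ = c • M := by rw [h3, Matrix.smul_mul, one_mul]

/-- an element normalising an absolutely irreducible group of isometries is a similarity -/
theorem similar_of_normalises [Nonempty ι] {P : Subgroup (GL ι F)} (hP : ActsAbsolutelyIrreducibly (matrixSet P))
    (σ : F ≃+* F) {M : Matrix ι ι F} (hM : M.det ≠ 0)
    (h1 : ∀ x ∈ P, ∀ u v, sf (σ : F →+* F) M (((x : GL ι F) : Matrix ι ι F) *ᵥ u)
      (((x : GL ι F) : Matrix ι ι F) *ᵥ v) = sf (σ : F →+* F) M u v)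
    {g : GL ι F} (hg : ∀ x ∈ P, g * x * g⁻¹ ∈ P) : g ∈ similarityGroup (sf (σ : F →+* F) M) := by
  set N : Matrix ι ι F := (g : Matrix ι ι F)ᵀ * M * (g : Matrix ι ι F).map (σ : F →+* F) with hN
  obtain ⟨c, hc⟩ := form_unique hP (σ : F →+* F) hM (fun x hx => (fixes_iff _ _ _).1 (h1 x hx))
    (N := N) (by
      intro x hx
      rw [← fixes_iff]
      intro u v
      have e1 : ∀ u v, sf (σ : F →+* F) N u v =
          sf (σ : F →+* F) M ((g : Matrix ι ι F) *ᵥ u) ((g : Matrix ι ι F) *ᵥ v) := by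
        intro u v; rw [sf_mulVec]
      rw [e1, e1]
      have e2 : ∀ w : ι → F, (g : Matrix ι ι F) *ᵥ ((x : Matrix ι ι F) *ᵥ w) =
          ((g * x * g⁻¹ : GL ι F) : Matrix ι ι F) *ᵥ ((g : Matrix ι ι F) *ᵥ w) := by
        intro w
        rw [Matrix.mulVec_mulVec, Matrix.mulVec_mulVec, ← Units.val_mul, ← Units.val_mul,
          inv_mul_cancel_right]
      rw [e2, e2, h1 _ (hg x hx)])
  have hc0 : c ≠ 0 := by
    intro h0
    rw [h0, zero_smul] at hc
    have hd : N.det ≠ 0 := by
      rw [hN, Matrix.det_mul, Matrix.det_mul, Matrix.det_transpose]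
      have hdx : IsUnit ((g : Matrix ι ι F)).det := (Matrix.isUnit_iff_isUnit_det _).1 g.isUnit
      have hdx' : IsUnit (((g : Matrix ι ι F)).map (σ : F →+* F)).det := by
        have := hdx.map (σ : F →+* F)
        rwa [RingHom.map_det] at this
      exact mul_ne_zero (mul_ne_zero hdx.ne_zero hM) hdx'.ne_zero
    apply hd
    rw [hc, Matrix.det_zero]
  refine ⟨Units.mk0 c hc0, fun u v => ?_⟩
  rw [sf_mulVec, ← hN, hc, sf_smul]
  rfl

/-! consequences for the forms of the Prelude -/

theorem symp_similar [Nonempty ι] {P : Subgroup (GL ι F)} (hP : ActsAbsolutelyIrreducibly (matrixSet P))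
    {f : (ι → F) → (ι → F) → F} (hb : IsBilinearForm f) (hn : IsNondegenerateForm f)
    (hf : FixesForm (matrixSet P) f)
    {g : GL ι F} (hg : ∀ x ∈ P, g * x * g⁻¹ ∈ P) : g ∈ similarityGroup f := by
  obtain ⟨M, hM⟩ : ∃ M, ∀ u v, f u v = sf ((RingEquiv.refl F : F ≃+* F) : F →+* F) M u v :=
    ⟨_, exists_matrix _ f hb.add_left hb.smul_left hb.add_right
      (fun c v x => by simpa using hb.smul_right c v x)⟩
  have hfe : f = sf ((RingEquiv.refl F : F ≃+* F) : F →+* F) M := funext fun u => funext fun v => hM u v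
  subst hfe
  have hdet : M.det ≠ 0 := det_ne_zero_of_nondeg (fun v hv => (hn v hv).1)
  exact similar_of_normalises hP (RingEquiv.refl F) hdet
    (fun x hx u v => hf _ ⟨x, hx, rfl⟩ u v) hg

theorem unitary_similar [Nonempty ι] {P : Subgroup (GL ι F)} (hP : ActsAbsolutelyIrreducibly (matrixSet P))
    {σ : F ≃+* F} {f : (ι → F) → (ι → F) → F} (hu : IsUnitaryForm σ f)
    (hf : FixesForm (matrixSet P) f)
    {g : GL ι F} (hg : ∀ x ∈ P, g * x * g⁻¹ ∈ P) : g ∈ similarityGroup f := by
  obtain ⟨M, hM⟩ : ∃ M, ∀ u v, f u v = sf (σ : F →+* F) M u v :=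
    ⟨_, exists_matrix _ f hu.add_left hu.smul_left
      (fun v x y => by rw [hu.herm, hu.add_left, map_add, ← hu.herm, ← hu.herm])
      (fun c v x => by rw [hu.herm, hu.smul_left, map_mul, ← hu.herm]; rfl)⟩
  have hfe : f = sf (σ : F →+* F) M := funext fun u => funext fun v => hM u v
  subst hfe
  have hdet : M.det ≠ 0 := det_ne_zero_of_nondeg (fun v hv => (hu.nondegenerate v hv).1)
  exact similar_of_normalises hP σ hdet (fun x hx u v => hf _ ⟨x, hx, rfl⟩ u v) hg

theorem Q_zero {Q : (ι → F) → F} (hQ : IsNondegenerateQuadraticForm Q) : Q 0 = 0 := by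
  have := hQ.smul 0 0
  simpa using this

theorem polar_self {Q : (ι → F) → F} (hQ : IsNondegenerateQuadraticForm Q) (v : ι → F) :
    QuadraticMap.polar Q v v = 2 * Q v := by
  unfold QuadraticMap.polar
  rw [← two_smul F v, hQ.smul]
  ring

theorem polar_fixes {P : Subgroup (GL ι F)} {Q : (ι → F) → F} (hf : FixesQuadForm (matrixSet P) Q) :
    FixesForm (matrixSet P) (QuadraticMap.polar Q) := by
  intro s hs u v
  unfold QuadraticMap.polar
  rw [← Matrix.mulVec_add, hf s hs, hf s hs, hf s hs]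

theorem polar_comm (Q : (ι → F) → F) (v w : ι → F) : QuadraticMap.polar Q v w = QuadraticMap.polar Q w v := by
  unfold QuadraticMap.polar
  rw [add_comm v w]; ring

theorem quad_similar [Nonempty ι] (h2 : (2 : F) ≠ 0) {P : Subgroup (GL ι F)}
    (hP : ActsAbsolutelyIrreducibly (matrixSet P))
    {Q : (ι → F) → F} (hQ : IsNondegenerateQuadraticForm Q)
    (hf : FixesQuadForm (matrixSet P) Q)
    {g : GL ι F} (hg : ∀ x ∈ P, g * x * g⁻¹ ∈ P) : g ∈ quadSimilarityGroup Q := by
  obtain ⟨c, hc⟩ := symp_similar hP hQ.polar_bilinear hQ.nondegenerate (polar_fixes hf) hg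
  refine ⟨c, fun v => ?_⟩
  have := hc v v
  rw [polar_self hQ, polar_self hQ] at this
  have h3 : (2 : F) * (Q ((g : Matrix ι ι F) *ᵥ v) - c * Q v) = 0 := by linear_combination this
  rcases mul_eq_zero.1 h3 with h | h
  · exact absurd h h2
  · exact sub_eq_zero.1 h

/-- in characteristic two the polar form is symplectic -/
theorem polar_symp (h2 : (2 : F) = 0) {Q : (ι → F) → F} (hQ : IsNondegenerateQuadraticForm Q) :
    IsSymplecticForm (QuadraticMap.polar Q) where
  bilinear := hQ.polar_bilinear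
  skew v w := by
    rw [polar_comm]
    have : QuadraticMap.polar Q w v + QuadraticMap.polar Q w v = 0 := by
      rw [← two_mul, h2, zero_mul]
    linear_combination this
  alternating v := by rw [polar_self hQ, h2, zero_mul]
  nondegenerate := hQ.nondegenerate

end Cfsg.Agent.H29.AscF
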