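import Mathlib
import Cfsg.Agent.H29_AscF

set_option autoImplicit false

/-! tensor powers -/

namespace Cfsg.Agent.H29.AscT

open Matrix Module Cfsg.Geo Cfsg.Agent.H29.AscF

section basis

variable {F V : Type*} [Field F] [AddCommGroup V] [Module F V] {k m : ℕ}
  (φ : Fin k → (Matrix (Fin m) (Fin m) F →ₐ[F] Module.End F V))

theorem phi_mul (i : Fin k) (a b c d : Fin m) (v : V) :
    φ i (single a b 1) (φ i (single c d 1) v) = if b = c then φ i (single a d 1) v else 0 := by
  rw [← Module.End.mul_apply, ← map_mul]
  by_cases h : b = c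
  · subst h
    rw [Matrix.single_mul_single_same, if_pos rfl, one_mul]
  · rw [Matrix.single_mul_single_of_ne (h := h), if_neg h, map_zero, LinearMap.zero_apply]

theorem exists_common_vector [Nontrivial V] (hm : 0 < m)
    (hc : ∀ i j, i ≠ j → ∀ x y v, φ i x (φ j y v) = φ j y (φ i x v)) :
    ∃ v : V, v ≠ 0 ∧ ∀ i, φ i (single ⟨0, hm⟩ ⟨0, hm⟩ 1) v = v := by
  classical
  have key : ∀ s : Finset (Fin k), ∃ v : V, v ≠ 0 ∧ ∀ i ∈ s, φ i (single ⟨0, hm⟩ ⟨0, hm⟩ 1) v = v := by
    intro s
    induction s using Finset.induction_on with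
    | empty =>
      obtain ⟨v, hv⟩ := exists_ne (0 : V)
      exact ⟨v, hv, by simp⟩
    | insert j s hj ih =>
      obtain ⟨v, hv, h⟩ := ih
      have hone : ∑ a, φ j (single a a 1) v = v := by
        rw [← LinearMap.sum_apply, ← map_sum]
        have : (∑ a : Fin m, single a a (1 : F)) = 1 := by
          ext x y
          simp only [Matrix.sum_apply, Matrix.single_apply, Matrix.one_apply]
          by_cases hxy : x = y
          · subst hxy; simp
          · rw [if_neg hxy]
            apply Finset.sum_eq_zero
            intro a _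
            rw [if_neg]
            rintro ⟨rfl, rfl⟩
            exact hxy rfl
        rw [this, map_one]; rfl
      obtain ⟨a, ha⟩ : ∃ a, φ j (single a a 1) v ≠ 0 := by
        by_contra hcon
        push Not at hcon
        apply hv
        rw [← hone]
        exact Finset.sum_eq_zero (fun a _ => hcon a)
      refine ⟨φ j (single ⟨0, hm⟩ a 1) v, ?_, ?_⟩
      · intro h0
        apply ha
        have h1 := phi_mul φ j a ⟨0, hm⟩ ⟨0, hm⟩ a v
        rw [h0, map_zero, if_pos rfl] at h1
        exact h1.symm
      · intro i hi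
        rcases Finset.mem_insert.1 hi with rfl | hi'
        · rw [phi_mul, if_pos rfl]
        · have hij : i ≠ j := by rintro rfl; exact hj hi'
          rw [hc i j hij, h i hi']
  obtain ⟨v, hv, h⟩ := key Finset.univ
  exact ⟨v, hv, fun i => h i (Finset.mem_univ i)⟩

/-- the family of vectors -/
theorem exists_family [Nontrivial V] (hm : 0 < m)
    (hc : ∀ i j, i ≠ j → ∀ x y v, φ i x (φ j y v) = φ j y (φ i x v)) :
    ∃ b : (Fin k → Fin m) → V, (∀ x, b x ≠ 0) ∧
      ∀ i a c x, φ i (single a c 1) (b x) = if x i = c then b (Function.update x i a) else 0 := by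
  classical
  obtain ⟨v, hv, hv1⟩ := exists_common_vector φ hm hc
  have key : ∀ s : Finset (Fin k), ∃ b : (Fin k → Fin m) → V, (∀ x, b x ≠ 0) ∧
      (∀ i ∈ s, ∀ a c x, φ i (single a c 1) (b x) = if x i = c then b (Function.update x i a) else 0) ∧
      (∀ i ∉ s, ∀ x, φ i (single ⟨0, hm⟩ ⟨0, hm⟩ 1) (b x) = b x ∧ ∀ a, b (Function.update x i a) = b x) := by
    intro s
    induction s using Finset.induction_on with
    | empty => exact ⟨fun _ => v, fun _ => hv, by simp, fun i _ x => ⟨hv1 i, fun _ => rfl⟩⟩
    | insert j s hj ih =>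
      obtain ⟨b, h1, h2, h3⟩ := ih
      refine ⟨fun x => φ j (single (x j) ⟨0, hm⟩ 1) (b x), ?_, ?_, ?_⟩
      · intro x h0
        apply h1 x
        have h4 := phi_mul φ j ⟨0, hm⟩ (x j) (x j) ⟨0, hm⟩ (b x)
        rw [if_pos rfl] at h4
        change φ j (single (x j) ⟨0, hm⟩ 1) (b x) = 0 at h0
        rw [h0, map_zero, (h3 j hj x).1] at h4
        exact h4.symm
      · intro i hi a c x
        rcases Finset.mem_insert.1 hi with rfl | hi'
        · rw [phi_mul]
          by_cases hx : x i = c
          · rw [if_pos hx.symm, if_pos hx]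
            simp only [Function.update_self]
            rw [(h3 i hj x).2 a]
          · rw [if_neg (Ne.symm hx), if_neg hx]
        · have hij : i ≠ j := by rintro rfl; exact hj hi'
          rw [hc i j hij, h2 i hi']
          by_cases hx : x i = c
          · rw [if_pos hx, if_pos hx]
            show _ = φ j (single (Function.update x i a j) ⟨0, hm⟩ 1) (b (Function.update x i a))
            rw [Function.update_of_ne (Ne.symm hij)]
          · rw [if_neg hx, if_neg hx, map_zero]
      · intro i hi x
        have hij : i ≠ j := by rintro rfl; exact hi (Finset.mem_insert_self _ _)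
        have his : i ∉ s := fun h => hi (Finset.mem_insert_of_mem h)
        refine ⟨?_, fun a => ?_⟩
        · rw [hc i j hij, (h3 i his x).1]
        · simp only [Function.update_of_ne (Ne.symm hij)]
          rw [(h3 i his x).2 a]
  obtain ⟨b, h1, h2, -⟩ := key Finset.univ
  exact ⟨b, h1, fun i => h2 i (Finset.mem_univ i)⟩

theorem phi_lin {b : (Fin k → Fin m) → V}
    (hb : ∀ i a c x, φ i (single a c 1) (b x) = if x i = c then b (Function.update x i a) else 0)
    (i : Fin k) (z : Matrix (Fin m) (Fin m) F) (x : Fin k → Fin m) :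
    φ i z (b x) = ∑ a, z a (x i) • b (Function.update x i a) := by
  have h1 : z = ∑ a, ∑ c, z a c • single a c (1 : F) := by
    conv_lhs => rw [Matrix.matrix_eq_sum_single z]
    simp [Matrix.smul_single]
  conv_lhs => rw [h1]
  simp only [map_sum, map_smul, LinearMap.sum_apply, LinearMap.smul_apply, hb]
  apply Finset.sum_congr rfl
  intro a _
  rw [Finset.sum_eq_single (x i)]
  · rw [if_pos rfl]
  · intro j _ hj
    rw [if_neg (Ne.symm hj), smul_zero]
  · simp

/-- the basis of the tensor power -/
theorem exists_tensor_basis [Nontrivial V] (hm : 0 < m)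
    (hc : ∀ i j, i ≠ j → ∀ x y v, φ i x (φ j y v) = φ j y (φ i x v))
    (hirr : ∀ W : Submodule F V, (∀ i z, ∀ w ∈ W, φ i z w ∈ W) → W = ⊥ ∨ W = ⊤) :
    ∃ b : Module.Basis (Fin k → Fin m) F V,
      ∀ i a c x, φ i (single a c 1) (b x) = if x i = c then b (Function.update x i a) else 0 := by
  classical
  obtain ⟨b, hb0, hb⟩ := exists_family φ hm hc
  have hspan : Submodule.span F (Set.range b) = ⊤ := by
    rcases hirr (Submodule.span F (Set.range b)) (by
      intro i z w hw
      induction hw using Submodule.span_induction with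
      | mem w hw =>
        obtain ⟨x, rfl⟩ := hw
        rw [phi_lin φ hb]
        exact Submodule.sum_mem _ (fun a _ => Submodule.smul_mem _ _ (Submodule.subset_span ⟨_, rfl⟩))
      | zero => rw [map_zero]; exact Submodule.zero_mem _
      | add x y _ _ hx hy => rw [map_add]; exact Submodule.add_mem _ hx hy
      | smul c x _ hx => rw [map_smul]; exact Submodule.smul_mem _ _ hx) with h | h
    · exfalso
      have : b (fun _ => ⟨0, hm⟩) ∈ Submodule.span F (Set.range b) := Submodule.subset_span ⟨_, rfl⟩
      rw [h] at this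
      exact hb0 _ ((Submodule.mem_bot F).1 this)
    · exact h
  have hproj : ∀ y : Fin k → Fin m, ∀ s : Finset (Fin k), ∃ T : Module.End F V, ∀ x,
      T (b x) = if ∀ i ∈ s, x i = y i then b x else 0 := by
    intro y s
    induction s using Finset.induction_on with
    | empty => exact ⟨1, fun x => by simp⟩
    | insert j s hj ih =>
      obtain ⟨T, hT⟩ := ih
      refine ⟨φ j (single (y j) (y j) 1) * T, fun x => ?_⟩
      rw [Module.End.mul_apply, hT]
      by_cases h : ∀ i ∈ s, x i = y i
      · rw [if_pos h, hb]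
        by_cases h' : x j = y j
        · rw [if_pos h', if_pos, ← h', Function.update_eq_self]
          intro i hi
          rcases Finset.mem_insert.1 hi with rfl | hi
          · exact h'
          · exact h i hi
        · rw [if_neg h', if_neg]
          intro hh
          exact h' (hh j (Finset.mem_insert_self _ _))
      · rw [if_neg h, map_zero, if_neg]
        intro hh
        exact h (fun i hi => hh i (Finset.mem_insert_of_mem hi))
  have hli : LinearIndependent F b := by
    rw [Fintype.linearIndependent_iff]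
    intro g hg y
    obtain ⟨T, hT⟩ := hproj y Finset.univ
    have h1 := congrArg T hg
    rw [map_sum, map_zero, Finset.sum_eq_single y] at h1
    · rw [map_smul, hT, if_pos (by simp)] at h1
      exact (smul_eq_zero.1 h1).resolve_right (hb0 y)
    · intro x _ hx
      rw [map_smul, hT, if_neg, smul_zero]
      intro h
      exact hx (funext fun i => h i (Finset.mem_univ i))
    · simp
  refine ⟨Module.Basis.mk hli (by rw [hspan]), ?_⟩
  intro i a c x
  simp only [Module.Basis.mk_apply]
  exact hb i a c x

end basis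

section matrices

variable {F : Type*} [Field F] {k m : ℕ}

/-- the Kronecker product of a family of matrices -/
def K (A : Fin k → Matrix (Fin m) (Fin m) F) : Matrix (Fin k → Fin m) (Fin k → Fin m) F :=
  Matrix.of fun x y => ∏ i, A i (x i) (y i)

theorem K_apply (A : Fin k → Matrix (Fin m) (Fin m) F) (x y : Fin k → Fin m) :
    K A x y = ∏ i, A i (x i) (y i) := rfl

theorem K_mul (A B : Fin k → Matrix (Fin m) (Fin m) F) : K A * K B = K (A * B) := by
  ext x y
  rw [Matrix.mul_apply, K_apply]
  simp only [K_apply, Pi.mul_apply, Matrix.mul_apply, ← Finset.prod_mul_distrib]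
  rw [Finset.prod_univ_sum]
  apply Finset.sum_congr
  · ext z; simp
  · intro z _; rfl

theorem K_one : K (1 : Fin k → Matrix (Fin m) (Fin m) F) = 1 := by
  ext x y
  rw [K_apply, Matrix.one_apply]
  by_cases h : x = y
  · subst h
    simp
  · rw [if_neg h]
    obtain ⟨i, hi⟩ := Function.ne_iff.1 h
    apply Finset.prod_eq_zero (Finset.mem_univ i)
    rw [Pi.one_apply, Matrix.one_apply_ne hi]

theorem K_transpose (A : Fin k → Matrix (Fin m) (Fin m) F) : (K A)ᵀ = K (fun i => (A i)ᵀ) := rfl

theorem K_update_apply (A : Fin k → Matrix (Fin m) (Fin m) F) (i : Fin k) (w : Matrix (Fin m) (Fin m) F)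
    (x y : Fin k → Fin m) : K (Function.update A i w) x y =
      w (x i) (y i) * ∏ j ∈ Finset.univ.erase i, A j (x j) (y j) := by
  rw [K_apply, ← Finset.mul_prod_erase _ _ (Finset.mem_univ i), Function.update_self]
  congr 1
  apply Finset.prod_congr rfl
  intro j hj
  rw [Function.update_of_ne (Finset.ne_of_mem_erase hj)]

theorem K_smul (c : Fin k → F) (A : Fin k → Matrix (Fin m) (Fin m) F) :
    K (fun i => c i • A i) = (∏ i, c i) • K A := by
  ext x y
  simp [K_apply, Finset.prod_mul_distrib]

/-- the permutation matrix -/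
def Pm (m : ℕ) (F : Type*) [Field F] (σ : Equiv.Perm (Fin k)) : Matrix (Fin k → Fin m) (Fin k → Fin m) F :=
  Matrix.of fun x y => if y = x ∘ σ then 1 else 0

theorem Pm_mul (σ : Equiv.Perm (Fin k)) (M : Matrix (Fin k → Fin m) (Fin k → Fin m) F)
    (x y : Fin k → Fin m) : (Pm m F σ * M) x y = M (x ∘ σ) y := by
  rw [Matrix.mul_apply]
  simp [Pm]

theorem mul_Pm (σ : Equiv.Perm (Fin k)) (M : Matrix (Fin k → Fin m) (Fin k → Fin m) F)
    (x y : Fin k → Fin m) : (M * Pm m F σ) x y = M x (y ∘ σ.symm) := by
  rw [Matrix.mul_apply, Finset.sum_eq_single (y ∘ σ.symm)]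
  · simp only [Pm, Matrix.of_apply]
    rw [if_pos, mul_one]
    funext i; simp
  · intro z _ hz
    simp only [Pm, Matrix.of_apply]
    rw [if_neg, mul_zero]
    rintro rfl
    apply hz
    funext i; simp
  · simp

theorem Pm_K (σ : Equiv.Perm (Fin k)) (A : Fin k → Matrix (Fin m) (Fin m) F) :
    Pm m F σ * K A = K (A ∘ σ.symm) * Pm m F σ := by
  ext x y
  rw [Pm_mul, mul_Pm, K_apply, K_apply]
  conv_rhs => rw [← Equiv.prod_comp σ]
  simp

theorem Pm_Pm (σ τ : Equiv.Perm (Fin k)) : Pm m F σ * Pm m F τ = Pm m F (σ * τ) := by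
  ext x y
  rw [Pm_mul]
  rfl

theorem Pm_one : Pm m F (1 : Equiv.Perm (Fin k)) = 1 := by
  ext x y
  simp only [Pm, Matrix.of_apply, Matrix.one_apply]
  congr 1
  rw [Equiv.Perm.coe_one, Function.comp_id]
  exact propext eq_comm

theorem Pm_transpose (σ : Equiv.Perm (Fin k)) : (Pm m F σ)ᵀ = Pm m F σ⁻¹ := by
  ext x y
  simp only [Pm, Matrix.of_apply, Matrix.transpose_apply]
  congr 1
  apply propext
  constructor
  · rintro rfl; funext i; simp
  · rintro rfl; funext i; simp

/-- the matrix of the i-th factor -/
def psi (i : Fin k) (w : Matrix (Fin m) (Fin m) F) : Matrix (Fin k → Fin m) (Fin k → Fin m) F :=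
  K (Function.update 1 i w)

theorem psi_apply (i : Fin k) (w : Matrix (Fin m) (Fin m) F) (x y : Fin k → Fin m) :
    psi i w x y = w (x i) (y i) * ∏ j ∈ Finset.univ.erase i, (1 : Matrix (Fin m) (Fin m) F) (x j) (y j) :=
  K_update_apply _ _ _ _ _

theorem K_mul_psi (A : Fin k → Matrix (Fin m) (Fin m) F) (i : Fin k) (z w : Matrix (Fin m) (Fin m) F)
    (h : w * A i = A i * z) : K A * psi i z = psi i w * K A := by
  unfold psi
  rw [K_mul, K_mul]
  congr 1
  funext j
  by_cases hj : j = i
  · subst hj
    simp [h]
  · simp [Function.update_of_ne hj]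

theorem Pm_mul_psi (σ : Equiv.Perm (Fin k)) (i : Fin k) (z : Matrix (Fin m) (Fin m) F) :
    Pm m F σ * psi i z = psi (σ i) z * Pm m F σ := by
  unfold psi
  rw [Pm_K]
  congr 2
  funext j
  by_cases hj : j = σ i
  · subst hj
    simp
  · rw [Function.update_of_ne hj]
    show Function.update (1 : Fin k → Matrix (Fin m) (Fin m) F) i z (σ.symm j) = _
    rw [Function.update_of_ne]
    · rfl
    · rintro rfl; simp at hj

/-- the operator `φ i z` has matrix `psi i z` in the tensor basis -/
theorem toMatrix_phi {V : Type*} [AddCommGroup V] [Module F V]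
    (φ : Fin k → (Matrix (Fin m) (Fin m) F →ₐ[F] Module.End F V))
    (b : Module.Basis (Fin k → Fin m) F V)
    (hb : ∀ i a c x, φ i (single a c 1) (b x) = if x i = c then b (Function.update x i a) else 0)
    (i : Fin k) (z : Matrix (Fin m) (Fin m) F) :
    LinearMap.toMatrixAlgEquiv b (φ i z) = psi i z := by
  ext x y
  rw [LinearMap.toMatrixAlgEquiv_apply, phi_lin φ hb, map_sum, Finsupp.finset_sum_apply, psi_apply]
  simp only [map_smul, Module.Basis.repr_self, Finsupp.smul_single, smul_eq_mul, mul_one]
  rw [Finset.sum_eq_single (x i)]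
  · by_cases h : ∀ j, j ≠ i → x j = y j
    · have h1 : Function.update y i (x i) = x := by
        funext j
        by_cases hj : j = i
        · subst hj; simp
        · rw [Function.update_of_ne hj, h j hj]
      rw [h1, Finsupp.single_eq_same]
      have h2 : ∏ j ∈ Finset.univ.erase i, (1 : Matrix (Fin m) (Fin m) F) (x j) (y j) = 1 := by
        apply Finset.prod_eq_one
        intro j hj
        rw [h j (Finset.ne_of_mem_erase hj), Matrix.one_apply_eq]
      rw [h2, mul_one]
    · push Not at h
      obtain ⟨j, hj, hxy⟩ := h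
      have h1 : Function.update y i (x i) ≠ x := by
        intro h1
        apply hxy
        rw [← h1, Function.update_of_ne hj]
      rw [Finsupp.single_eq_of_ne (Ne.symm h1)]
      have h2 : ∏ j ∈ Finset.univ.erase i, (1 : Matrix (Fin m) (Fin m) F) (x j) (y j) = 0 := by
        apply Finset.prod_eq_zero (Finset.mem_erase.2 ⟨hj, Finset.mem_univ j⟩)
        rw [Matrix.one_apply_ne hxy]
      rw [h2, mul_zero]
  · intro a _ ha
    rw [Finsupp.single_eq_of_ne]
    intro h1
    apply ha
    rw [h1, Function.update_self]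
  · simp

end matrices

end Cfsg.Agent.H29.AscT
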