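import Mathlib
import Cfsg.Agent.H29_AscT
import Cfsg.Agent.H29_Asc4

set_option autoImplicit false

/-! membership in the tensor wreath subgroups; the case of two dimensional factors -/

namespace Cfsg.Agent.H29.AscT

open Matrix Module Cfsg.Geo Cfsg.Agent.H29.AscF Cfsg.Agent.H29.Asc Cfsg.Agent.H29.Clifford

variable {F : Type*} [Field F] {k m n : ℕ}

/-- pure tensors -/
def gK (A : Fin k → GL (Fin m) F) : GL (Fin k → Fin m) F where
  val := K (fun i => (A i : Matrix (Fin m) (Fin m) F))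
  inv := K (fun i => ((A i)⁻¹ : GL (Fin m) F))
  val_inv := by
    rw [K_mul, ← K_one]
    congr 1
    funext i
    rw [Pi.mul_apply, ← Units.val_mul, mul_inv_cancel, Units.val_one, Pi.one_apply]
  inv_val := by
    rw [K_mul, ← K_one]
    congr 1
    funext i
    rw [Pi.mul_apply, ← Units.val_mul, inv_mul_cancel, Units.val_one, Pi.one_apply]

theorem gK_pure (A : Fin k → GL (Fin m) F) : IsPureTensor m k (gK A) := ⟨A, fun _ _ => rfl⟩

/-- factor permutations -/
def gP (m : ℕ) (F : Type*) [Field F] (σ : Equiv.Perm (Fin k)) : GL (Fin k → Fin m) F where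
  val := Pm m F σ
  inv := Pm m F σ⁻¹
  val_inv := by rw [Pm_Pm, mul_inv_cancel, Pm_one]
  inv_val := by rw [Pm_Pm, inv_mul_cancel, Pm_one]

theorem gP_perm (σ : Equiv.Perm (Fin k)) : IsFactorPermutation m k (gP m F σ) := ⟨σ, fun _ _ => rfl⟩

theorem conj_of_basis {κ : Type*} [Fintype κ] [DecidableEq κ] (b : κ → (Fin n → F)) (e : Fin n ≃ κ)
    (P : GL (Fin n) F) (hP : ∀ i, (P : Matrix (Fin n) (Fin n) F) *ᵥ (Pi.single i 1) = b (e i))
    (g : Matrix (Fin n) (Fin n) F) (Y : Matrix κ κ F) (h : ∀ y, g *ᵥ b y = ∑ x, Y x y • b x) :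
    g * (P : Matrix (Fin n) (Fin n) F) = (P : Matrix (Fin n) (Fin n) F) * Y.submatrix e e := by
  apply Matrix.toLin'.injective
  apply (Pi.basisFun F (Fin n)).ext
  intro j
  rw [Pi.basisFun_apply, Matrix.toLin'_apply, Matrix.toLin'_apply, ← Matrix.mulVec_mulVec,
    ← Matrix.mulVec_mulVec, hP, h]
  have h2 : (Y.submatrix e e) *ᵥ (Pi.single j 1) = ∑ i, Y (e i) (e j) • (Pi.single i (1 : F) : Fin n → F) := by
    funext i
    rw [Matrix.mulVec_single_one]
    simp [Finset.sum_apply, Pi.single_apply]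
  rw [h2]
  have h3 : ∀ (s : Finset (Fin n)) (v : Fin n → (Fin n → F)),
      (P : Matrix (Fin n) (Fin n) F) *ᵥ (∑ i ∈ s, v i) = ∑ i ∈ s, (P : Matrix (Fin n) (Fin n) F) *ᵥ (v i) :=
    fun s v => map_sum (Matrix.mulVecLin (P : Matrix (Fin n) (Fin n) F)) v s
  rw [h3]
  simp only [Matrix.mulVec_smul, hP]
  rw [← Equiv.sum_comp e]

theorem mem_wreath [Nontrivial (Fin n → F)]
    (φ : Fin k → (Matrix (Fin m) (Fin m) F →ₐ[F] Module.End F (Fin n → F)))
    (b : Module.Basis (Fin k → Fin m) F (Fin n → F))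
    (hb : ∀ i a c x, φ i (single a c 1) (b x) = if x i = c then b (Function.update x i a) else 0)
    (e : Fin n ≃ (Fin k → Fin m)) (P : GL (Fin n) F)
    (hP : ∀ i, (P : Matrix (Fin n) (Fin n) F) *ᵥ (Pi.single i 1) = b (e i))
    (hcen : ∀ u : Module.End F (Fin n → F), (∀ i z, u * φ i z = φ i z * u) → ∃ c : F, u = c • 1)
    (hk : 0 < k) (g : GL (Fin n) F) (σ : Equiv.Perm (Fin k)) (a : Fin k → GL (Fin m) F)
    (hg : ∀ i z, cjA g (φ i z) = φ (σ i) ((a i : Matrix (Fin m) (Fin m) F) * z *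
      (((a i)⁻¹ : GL (Fin m) F) : Matrix (Fin m) (Fin m) F))) :
    g ∈ tensorWreathSubgroup m k e P := by
  classical
  let E := LinearMap.toMatrixAlgEquiv b
  have hE : ∀ i z, E (φ i z) = psi i z := toMatrix_phi φ b hb
  have hE' : ∀ i z, E.symm (psi i z) = φ i z := fun i z => by rw [← hE, AlgEquiv.symm_apply_apply]
  let X : GL (Fin k → Fin m) F := gP m F σ * gK a
  have hX : ∀ i z, (X : Matrix (Fin k → Fin m) (Fin k → Fin m) F) * psi i z =
      psi (σ i) ((a i : Matrix (Fin m) (Fin m) F) * z * (((a i)⁻¹ : GL (Fin m) F) : Matrix (Fin m) (Fin m) F)) * (X : Matrix (Fin k → Fin m) (Fin k → Fin m) F) := by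
    intro i z
    show Pm m F σ * K _ * psi i z = _ * (Pm m F σ * K _)
    rw [mul_assoc, K_mul_psi _ i z ((a i : Matrix (Fin m) (Fin m) F) * z * (((a i)⁻¹ : GL (Fin m) F) : Matrix (Fin m) (Fin m) F)),
      ← mul_assoc, Pm_mul_psi, mul_assoc]
    rw [mul_assoc, ← Units.val_mul, inv_mul_cancel, Units.val_one, mul_one]
  have hXi : ∀ i z, ((X⁻¹ : GL (Fin k → Fin m) F) : Matrix (Fin k → Fin m) (Fin k → Fin m) F) *
      psi (σ i) ((a i : Matrix (Fin m) (Fin m) F) * z * (((a i)⁻¹ : GL (Fin m) F) : Matrix (Fin m) (Fin m) F)) =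
      psi i z * ((X⁻¹ : GL (Fin k → Fin m) F) : Matrix (Fin k → Fin m) (Fin k → Fin m) F) := by
    intro i z
    have h1 := hX i z
    calc ((X⁻¹ : GL (Fin k → Fin m) F) : Matrix (Fin k → Fin m) (Fin k → Fin m) F) *
        psi (σ i) ((a i : Matrix (Fin m) (Fin m) F) * z * (((a i)⁻¹ : GL (Fin m) F) : Matrix (Fin m) (Fin m) F))
        = ((X⁻¹ : GL (Fin k → Fin m) F) : Matrix (Fin k → Fin m) (Fin k → Fin m) F) *
          (psi (σ i) ((a i : Matrix (Fin m) (Fin m) F) * z * (((a i)⁻¹ : GL (Fin m) F) : Matrix (Fin m) (Fin m) F)) * (X : Matrix (Fin k → Fin m) (Fin k → Fin m) F)) *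
          ((X⁻¹ : GL (Fin k → Fin m) F) : Matrix (Fin k → Fin m) (Fin k → Fin m) F) := by
          rw [mul_assoc _ (psi (σ i) _ * _), mul_assoc (psi (σ i) _), ← Units.val_mul X, mul_inv_cancel,
            Units.val_one, mul_one]
      _ = psi i z * ((X⁻¹ : GL (Fin k → Fin m) F) : Matrix (Fin k → Fin m) (Fin k → Fin m) F) := by
          rw [← h1, ← mul_assoc, ← Units.val_mul, inv_mul_cancel, Units.val_one, one_mul]
  have hgl' : tl n F ((g⁻¹ : GL (Fin n) F) : Matrix (Fin n) (Fin n) F) * tl n F (g : Matrix (Fin n) (Fin n) F) = 1 := by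
    rw [← map_mul, ← Units.val_mul, inv_mul_cancel, Units.val_one, map_one]
  have hcj : ∀ r, cjA g r * tl n F (g : Matrix (Fin n) (Fin n) F) = tl n F (g : Matrix (Fin n) (Fin n) F) * r := by
    intro r
    have h1 : cjA g r = tl n F (g : Matrix (Fin n) (Fin n) F) * r * tl n F ((g⁻¹ : GL (Fin n) F) : Matrix (Fin n) (Fin n) F) := rfl
    rw [h1, mul_assoc, hgl', mul_one]
  obtain ⟨c, hc⟩ := hcen (E.symm ((X⁻¹ : GL (Fin k → Fin m) F) : Matrix (Fin k → Fin m) (Fin k → Fin m) F) *
      tl n F (g : Matrix (Fin n) (Fin n) F)) (by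
    intro i z
    rw [mul_assoc, ← hcj, hg, ← hE', ← mul_assoc, ← map_mul, hXi, map_mul, hE', mul_assoc])
  have hgX : tl n F (g : Matrix (Fin n) (Fin n) F) = c • E.symm (X : Matrix (Fin k → Fin m) (Fin k → Fin m) F) := by
    have h1 : E.symm (X : Matrix (Fin k → Fin m) (Fin k → Fin m) F) *
        (E.symm ((X⁻¹ : GL (Fin k → Fin m) F) : Matrix (Fin k → Fin m) (Fin k → Fin m) F) *
      tl n F (g : Matrix (Fin n) (Fin n) F)) = tl n F (g : Matrix (Fin n) (Fin n) F) := by
      rw [← mul_assoc, ← map_mul, ← Units.val_mul, mul_inv_cancel, Units.val_one, map_one, one_mul]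
    rw [← h1, hc, mul_smul_comm, mul_one]
  have hc0 : c ≠ 0 := by
    rintro rfl
    rw [zero_smul] at hgX
    rw [hgX, mul_zero] at hgl'
    exact zero_ne_one hgl'
  let i0 : Fin k := ⟨0, hk⟩
  let a' : Fin k → GL (Fin m) F := Function.update a i0
    ((Units.map (Matrix.scalar (Fin m) : F →+* Matrix (Fin m) (Fin m) F).toMonoidHom (Units.mk0 c hc0)) * a i0)
  have hKa : K (fun i => (a' i : Matrix (Fin m) (Fin m) F)) = c • K (fun i => (a i : Matrix (Fin m) (Fin m) F)) := by
    have h1 : (fun i => (a' i : Matrix (Fin m) (Fin m) F)) =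
        fun i => (if i = i0 then c else 1 : F) • (a i : Matrix (Fin m) (Fin m) F) := by
      funext i
      by_cases hi : i = i0
      · subst hi
        simp only [a', Function.update_self, if_pos rfl, Units.val_mul]
        show Matrix.scalar (Fin m) c * _ = _
        rw [Matrix.scalar_apply, ← Matrix.smul_one_eq_diagonal, Matrix.smul_mul, one_mul, if_pos trivial]
      · simp only [a', Function.update_of_ne hi, if_neg hi, one_smul]
    rw [h1, K_smul]
    congr 1
    rw [Finset.prod_ite_eq']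
    simp
  let Y : GL (Fin k → Fin m) F := gP m F σ * gK a'
  have hY : (Y : Matrix (Fin k → Fin m) (Fin k → Fin m) F) = c • (X : Matrix (Fin k → Fin m) (Fin k → Fin m) F) := by
    show Pm m F σ * K (fun i => (a' i : Matrix (Fin m) (Fin m) F)) = c • (Pm m F σ * K _)
    rw [hKa, Matrix.mul_smul]
  have hgY : ∀ y, (g : Matrix (Fin n) (Fin n) F) *ᵥ b y = ∑ x, (Y : Matrix (Fin k → Fin m) (Fin k → Fin m) F) x y • b x := by
    intro y
    have h1 : (g : Matrix (Fin n) (Fin n) F) *ᵥ b y = tl n F (g : Matrix (Fin n) (Fin n) F) (b y) := rfl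
    rw [h1, hgX, ← map_smul, ← hY]
    exact LinearMap.ext_iff.1 rfl _ |>.trans (by
      have := Matrix.toLin_self b b (Y : Matrix (Fin k → Fin m) (Fin k → Fin m) F) y
      exact this)
  have hfin := conj_of_basis b e P hP g Y hgY
  refine ⟨glReindex e.symm Y, ⟨Y, ?_, rfl⟩, ?_⟩
  · exact Subgroup.mul_mem _ (Subgroup.subset_closure (Or.inr (gP_perm σ)))
      (Subgroup.subset_closure (Or.inl (gK_pure a')))
  · apply Units.ext
    show (P : Matrix (Fin n) (Fin n) F) * (Y : Matrix (Fin k → Fin m) (Fin k → Fin m) F).submatrix e e *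
      ((P⁻¹ : GL (Fin n) F) : Matrix (Fin n) (Fin n) F) = g
    rw [← hfin, mul_assoc, ← Units.val_mul, mul_inv_cancel, Units.val_one, mul_one]

/-! ### two dimensional factors -/

/-- the standard alternating matrix of size two -/
def J2 (F : Type*) [Field F] : Matrix (Fin 2) (Fin 2) F := !![0, 1; -1, 0]

theorem J2_congr (a : Matrix (Fin 2) (Fin 2) F) : aᵀ * J2 F * a = a.det • J2 F := by
  ext i j
  fin_cases i <;> fin_cases j <;>
    simp [J2, Matrix.mul_apply, Fin.sum_univ_two, Matrix.det_fin_two] <;> ring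

/-- the form matrix on the tensor power -/
def KJ (k : ℕ) (F : Type*) [Field F] : Matrix (Fin k → Fin 2) (Fin k → Fin 2) F := K (fun _ => J2 F)

theorem KJ_pure (A : Fin k → GL (Fin 2) F) :
    ((gK A : GL (Fin k → Fin 2) F) : Matrix (Fin k → Fin 2) (Fin k → Fin 2) F)ᵀ * KJ k F *
      ((gK A : GL (Fin k → Fin 2) F) : Matrix (Fin k → Fin 2) (Fin k → Fin 2) F) =
      (∏ i, ((A i : GL (Fin 2) F) : Matrix (Fin 2) (Fin 2) F).det) • KJ k F := by
  show (K (fun i => (A i : Matrix (Fin 2) (Fin 2) F)))ᵀ * K _ * K (fun i => (A i : Matrix (Fin 2) (Fin 2) F)) = _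
  rw [K_transpose, K_mul, K_mul]
  show K (fun i => (A i : Matrix (Fin 2) (Fin 2) F)ᵀ * J2 F * (A i : Matrix (Fin 2) (Fin 2) F)) = _
  simp only [J2_congr]
  rw [K_smul]
  rfl

theorem KJ_perm (σ : Equiv.Perm (Fin k)) :
    ((gP 2 F σ : GL (Fin k → Fin 2) F) : Matrix (Fin k → Fin 2) (Fin k → Fin 2) F)ᵀ * KJ k F *
      ((gP 2 F σ : GL (Fin k → Fin 2) F) : Matrix (Fin k → Fin 2) (Fin k → Fin 2) F) = KJ k F := by
  show (Pm 2 F σ)ᵀ * K _ * Pm 2 F σ = K _
  have h := Pm_K σ (fun _ : Fin k => J2 F)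
  have h2 : (fun _ : Fin k => J2 F) ∘ σ.symm = fun _ => J2 F := rfl
  rw [h2] at h
  rw [mul_assoc, ← h, ← mul_assoc, Pm_transpose, Pm_Pm, inv_mul_cancel, Pm_one, one_mul]

/-- the subgroup of similarities of a bilinear form matrix -/
def simM {κ : Type*} [Fintype κ] [DecidableEq κ] (M : Matrix κ κ F) : Subgroup (GL κ F) where
  carrier := {g | ∃ c : Fˣ, (g : Matrix κ κ F)ᵀ * M * (g : Matrix κ κ F) = (c : F) • M}
  mul_mem' := by
    rintro a b ⟨c, hc⟩ ⟨d, hd⟩
    refine ⟨c * d, ?_⟩
    rw [Units.val_mul, Matrix.transpose_mul]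
    calc (b : Matrix κ κ F)ᵀ * (a : Matrix κ κ F)ᵀ * M * ((a : Matrix κ κ F) * (b : Matrix κ κ F))
        = (b : Matrix κ κ F)ᵀ * ((a : Matrix κ κ F)ᵀ * M * (a : Matrix κ κ F)) * (b : Matrix κ κ F) := by
          simp only [mul_assoc]
      _ = _ := by
          rw [hc, Matrix.mul_smul, Matrix.smul_mul, hd, smul_smul, Units.val_mul]
  one_mem' := ⟨1, by simp⟩
  inv_mem' := by
    rintro a ⟨c, hc⟩
    refine ⟨c⁻¹, ?_⟩
    have h1 : ((a⁻¹ : GL κ F) : Matrix κ κ F)ᵀ * ((a : Matrix κ κ F)ᵀ * M * (a : Matrix κ κ F)) *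
        ((a⁻¹ : GL κ F) : Matrix κ κ F) = M := by
      have e1 : ((a⁻¹ : GL κ F) : Matrix κ κ F)ᵀ * (a : Matrix κ κ F)ᵀ = 1 := by
        rw [← Matrix.transpose_mul, ← Units.val_mul, mul_inv_cancel, Units.val_one, Matrix.transpose_one]
      have e2 : (a : Matrix κ κ F) * ((a⁻¹ : GL κ F) : Matrix κ κ F) = 1 := by
        rw [← Units.val_mul, mul_inv_cancel, Units.val_one]
      calc _ = (((a⁻¹ : GL κ F) : Matrix κ κ F)ᵀ * (a : Matrix κ κ F)ᵀ) * M *
            ((a : Matrix κ κ F) * ((a⁻¹ : GL κ F) : Matrix κ κ F)) := by simp only [mul_assoc]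
        _ = M := by rw [e1, e2, one_mul, mul_one]
    rw [hc, Matrix.mul_smul, Matrix.smul_mul] at h1
    have h2 := congrArg (fun X => ((c⁻¹ : Fˣ) : F) • X) h1
    simp only [smul_smul] at h2
    rw [Units.inv_mul, one_smul] at h2
    exact h2

theorem wreath_le_simM : tensorWreathStandard 2 k F ≤ simM (KJ k F) := by
  unfold tensorWreathStandard
  rw [Subgroup.closure_le]
  rintro g (⟨A, hA⟩ | ⟨σ, hσ⟩)
  · have hg : g = gK A := Units.ext (Matrix.ext hA)
    rw [hg]
    refine ⟨∏ i, Units.mk0 ((A i : GL (Fin 2) F) : Matrix (Fin 2) (Fin 2) F).det ?_, ?_⟩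
    · exact ((Matrix.isUnit_iff_isUnit_det _).1 (A i).isUnit).ne_zero
    · rw [KJ_pure]
      simp
  · have hg : g = gP 2 F σ := Units.ext (Matrix.ext hσ)
    rw [hg]
    exact ⟨1, by rw [KJ_perm, Units.val_one, one_smul]⟩

/-- alternating matrices vanish on the diagonal of the form -/
theorem alt_of_skew {κ : Type} [Fintype κ] [DecidableEq κ] {M : Matrix κ κ F} (h1 : Mᵀ = -M) (h2 : ∀ i, M i i = 0)
    (v : κ → F) : sf (RingHom.id F) M v v = 0 := by
  have hskew : ∀ v w, sf (RingHom.id F) M v w = - sf (RingHom.id F) M w v := by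
    intro v w
    have e1 : ∀ (M : Matrix κ κ F) (v w : κ → F), sf (RingHom.id F) M v w = v ⬝ᵥ (M *ᵥ w) := fun _ _ _ => rfl
    rw [e1, e1, Matrix.dotProduct_mulVec, dotProduct_comm, ← Matrix.mulVec_transpose, h1,
      Matrix.neg_mulVec, dotProduct_neg]
  have key : ∀ s : Finset κ, sf (RingHom.id F) M (∑ i ∈ s, v i • (Pi.single i (1 : F) : κ → F))
      (∑ i ∈ s, v i • (Pi.single i (1 : F) : κ → F)) = 0 := by
    intro s
    induction s using Finset.induction_on with
    | empty => simp [sf]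
    | insert a s ha ih =>
      rw [Finset.sum_insert ha, sf_add_left, sf_add_right, sf_add_right, ih,
        hskew (∑ i ∈ s, v i • (Pi.single i (1 : F) : κ → F)), sf_smul_left, sf_smul_left, sf_smul_right,
        sf_single, h2]
      ring
  have hv : v = ∑ i, v i • (Pi.single i (1 : F) : κ → F) := by
    conv_lhs => rw [pi_eq_sum_univ' v]
  rw [hv]
  exact key Finset.univ

theorem J2_transpose : (J2 F)ᵀ = (-1 : F) • J2 F := by
  ext i j
  fin_cases i <;> fin_cases j <;> simp [J2]

theorem KJ_transpose : (KJ k F)ᵀ = ((-1 : F) ^ k) • KJ k F := by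
  unfold KJ
  rw [K_transpose, J2_transpose, K_smul]
  simp

theorem J2_sq : J2 F * J2 F = (-1 : F) • 1 := by
  ext i j
  fin_cases i <;> fin_cases j <;> simp [J2, Matrix.mul_apply, Fin.sum_univ_two]

theorem KJ_det : (KJ k F).det ≠ 0 := by
  intro h
  have h1 : KJ k F * KJ k F = ((-1 : F) ^ k) • 1 := by
    unfold KJ
    rw [K_mul]
    show K (fun i => J2 F * J2 F) = _
    rw [J2_sq, K_smul (fun _ : Fin k => (-1 : F)) (fun _ => 1)]
    have : K (fun _ : Fin k => (1 : Matrix (Fin 2) (Fin 2) F)) = 1 := K_one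
    rw [this]
    simp
  have h2 := congrArg Matrix.det h1
  rw [Matrix.det_mul, h, mul_zero, Matrix.det_smul, Matrix.det_one, mul_one] at h2
  have : ((-1 : F) ^ k) ^ Fintype.card (Fin k → Fin 2) ≠ 0 := pow_ne_zero _ (pow_ne_zero _ (by norm_num))
  exact this h2.symm

/-- transport of the similarity group along a change of basis -/
theorem wreath2_le (e : Fin n ≃ (Fin k → Fin 2)) (P : GL (Fin n) F) :
    tensorWreathSubgroup 2 k e P ≤ similarityGroup (sf (RingHom.id F)
      ((((P⁻¹ : GL (Fin n) F) : Matrix (Fin n) (Fin n) F))ᵀ * (KJ k F).submatrix e e *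
        ((P⁻¹ : GL (Fin n) F) : Matrix (Fin n) (Fin n) F))) := by
  rintro _ ⟨_, ⟨X, hX, rfl⟩, rfl⟩
  obtain ⟨c, hc⟩ := wreath_le_simM hX
  refine ⟨c, fun u v => ?_⟩
  rw [sf_mulVec, ← sf_smul]
  congr 1
  have hPP : ((P⁻¹ : GL (Fin n) F) : Matrix (Fin n) (Fin n) F) * (P : Matrix (Fin n) (Fin n) F) = 1 := by
    rw [← Units.val_mul, inv_mul_cancel, Units.val_one]
  have hPt : (P : Matrix (Fin n) (Fin n) F)ᵀ * ((P⁻¹ : GL (Fin n) F) : Matrix (Fin n) (Fin n) F)ᵀ = 1 := by
    rw [← Matrix.transpose_mul, hPP, Matrix.transpose_one]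
  have hid : ∀ A : Matrix (Fin n) (Fin n) F, A.map (RingHom.id F) = A := fun A => by
    ext i j; rfl
  rw [hid]
  show ((P : Matrix (Fin n) (Fin n) F) * (X : Matrix (Fin k → Fin 2) (Fin k → Fin 2) F).submatrix e e *
      ((P⁻¹ : GL (Fin n) F) : Matrix (Fin n) (Fin n) F))ᵀ * (((P⁻¹ : GL (Fin n) F) : Matrix (Fin n) (Fin n) F)ᵀ *
        (KJ k F).submatrix e e * ((P⁻¹ : GL (Fin n) F) : Matrix (Fin n) (Fin n) F)) *
      ((P : Matrix (Fin n) (Fin n) F) * (X : Matrix (Fin k → Fin 2) (Fin k → Fin 2) F).submatrix e e *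
      ((P⁻¹ : GL (Fin n) F) : Matrix (Fin n) (Fin n) F)) = _
  rw [Matrix.transpose_mul, Matrix.transpose_mul]
  have hsub : ((X : Matrix (Fin k → Fin 2) (Fin k → Fin 2) F).submatrix e e)ᵀ * (KJ k F).submatrix e e *
      (X : Matrix (Fin k → Fin 2) (Fin k → Fin 2) F).submatrix e e = (c : F) • (KJ k F).submatrix e e := by
    rw [Matrix.transpose_submatrix, Matrix.submatrix_mul_equiv, Matrix.submatrix_mul_equiv, hc]
    rfl
  calc _ = ((P⁻¹ : GL (Fin n) F) : Matrix (Fin n) (Fin n) F)ᵀ *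
        (((X : Matrix (Fin k → Fin 2) (Fin k → Fin 2) F).submatrix e e)ᵀ *
        ((P : Matrix (Fin n) (Fin n) F)ᵀ * ((P⁻¹ : GL (Fin n) F) : Matrix (Fin n) (Fin n) F)ᵀ) *
        (KJ k F).submatrix e e * (((P⁻¹ : GL (Fin n) F) : Matrix (Fin n) (Fin n) F) * (P : Matrix (Fin n) (Fin n) F)) *
        (X : Matrix (Fin k → Fin 2) (Fin k → Fin 2) F).submatrix e e) *
        ((P⁻¹ : GL (Fin n) F) : Matrix (Fin n) (Fin n) F) := by simp only [mul_assoc]
    _ = _ := by
      rw [hPP, hPt, mul_one, mul_one, hsub, Matrix.mul_smul, Matrix.smul_mul]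

/-- a tensor wreath group with two dimensional factors preserves a symplectic or a quadratic form
up to scalars -/
theorem wreath2_class8 (hk : 0 < k) (e : Fin n ≃ (Fin k → Fin 2)) (P : GL (Fin n) F) :
    (∃ f : (Fin n → F) → (Fin n → F) → F, IsSymplecticForm f ∧
      tensorWreathSubgroup 2 k e P ≤ similarityGroup f) ∨
    ((2 : F) ≠ 0 ∧ ∃ Q : (Fin n → F) → F, IsNondegenerateQuadraticForm Q ∧
      tensorWreathSubgroup 2 k e P ≤ quadSimilarityGroup Q) := by
  set M : Matrix (Fin n) (Fin n) F := (((P⁻¹ : GL (Fin n) F) : Matrix (Fin n) (Fin n) F))ᵀ *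
    (KJ k F).submatrix e e * ((P⁻¹ : GL (Fin n) F) : Matrix (Fin n) (Fin n) F) with hM
  have hle := wreath2_le (F := F) e P
  rw [← hM] at hle
  have hdet : M.det ≠ 0 := by
    rw [hM, Matrix.det_mul, Matrix.det_mul, Matrix.det_transpose, Matrix.det_submatrix_equiv_self]
    have hd : (((P⁻¹ : GL (Fin n) F) : Matrix (Fin n) (Fin n) F)).det ≠ 0 :=
      ((Matrix.isUnit_iff_isUnit_det _).1 (P⁻¹).isUnit).ne_zero
    exact mul_ne_zero (mul_ne_zero hd KJ_det) hd
  have hMt : Mᵀ = ((-1 : F) ^ k) • M := by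
    have hs : (((-1 : F) ^ k) • KJ k F).submatrix e e = ((-1 : F) ^ k) • (KJ k F).submatrix e e := rfl
    rw [hM, Matrix.transpose_mul, Matrix.transpose_mul, Matrix.transpose_transpose, Matrix.transpose_submatrix,
      KJ_transpose, hs, Matrix.smul_mul, Matrix.mul_smul, ← mul_assoc]
  have hnd : IsNondegenerateForm (sf (RingHom.id F) M) := nondeg_of_det (σ := RingEquiv.refl F) hdet
  have hbil : IsBilinearForm (sf (RingHom.id F) M) :=
    { add_left := sf_add_left _ _
      smul_left := sf_smul_left _ _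
      add_right := sf_add_right _ _
      smul_right := fun c v x => sf_smul_right _ _ c v x }
  have hsym : ∀ v w, sf (RingHom.id F) M v w = (-1) ^ k * sf (RingHom.id F) M w v := by
    intro v w
    have e1 : ∀ (M : Matrix (Fin n) (Fin n) F) (v w : Fin n → F), sf (RingHom.id F) M v w = v ⬝ᵥ (M *ᵥ w) :=
      fun _ _ _ => rfl
    rw [e1, e1, Matrix.dotProduct_mulVec, dotProduct_comm, ← Matrix.mulVec_transpose, hMt,
      Matrix.smul_mulVec, dotProduct_smul, smul_eq_mul]
  have hmain : (∀ v w, sf (RingHom.id F) M v w = - sf (RingHom.id F) M w v) →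
      (∃ f : (Fin n → F) → (Fin n → F) → F, IsSymplecticForm f ∧
      tensorWreathSubgroup 2 k e P ≤ similarityGroup f) := by
    intro hskew
    refine ⟨sf (RingHom.id F) M, ⟨hbil, hskew, ?_, hnd⟩, hle⟩
    intro v
    -- reduce to the standard matrix
    have h1 : sf (RingHom.id F) M v v = sf (RingHom.id F) ((KJ k F).submatrix e e)
        (((P⁻¹ : GL (Fin n) F) : Matrix (Fin n) (Fin n) F) *ᵥ v)
        (((P⁻¹ : GL (Fin n) F) : Matrix (Fin n) (Fin n) F) *ᵥ v) := by
      rw [sf_mulVec, hM]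
      rfl
    rw [h1]
    apply alt_of_skew
    · -- skew
      rw [Matrix.transpose_submatrix, KJ_transpose]
      have h2 : (-1 : F) ^ k = -1 := by
        by_contra hne
        -- then the form is both symmetric and skew, with -1 ≠ (-1)^k
        have h3 : (-1 : F) ^ k = 1 := by
          rcases neg_one_pow_eq_or F k with h | h
          · exact h
          · exact absurd h hne
        have hMz : M = 0 ∨ (2 : F) = 0 := by
          by_cases h2 : (2 : F) = 0
          · right; exact h2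
          · left
            apply sf_injective (RingHom.id F)
            intro v w
            have a1 := hsym v w
            have a2 := hskew v w
            rw [h3, one_mul] at a1
            have a3 : (2 : F) * sf (RingHom.id F) M v w = 0 := by linear_combination a1 + a2
            have a4 := (mul_eq_zero.1 a3).resolve_left h2
            rw [a4]
            simp [sf]
        rcases hMz with h | h
        · have hn0 : Nonempty (Fin n) := ⟨e.symm (fun _ => 0)⟩
          rw [h, Matrix.det_zero] at hdet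
          exact hdet rfl
        · apply hne
          rw [h3]
          linear_combination h
      rw [h2]
      ext i j
      simp
    · intro i
      show KJ k F (e i) (e i) = 0
      unfold KJ
      rw [K_apply]
      apply Finset.prod_eq_zero (Finset.mem_univ (⟨0, hk⟩ : Fin k))
      have : ∀ a : Fin 2, J2 F a a = 0 := by
        intro a; fin_cases a <;> simp [J2]
      exact this _
  by_cases h2 : (2 : F) = 0
  · left
    apply hmain
    intro v w
    rw [hsym v w]
    have h3 : (-1 : F) = 1 := by linear_combination -h2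
    rw [h3, one_pow, one_mul]
    linear_combination (sf (RingHom.id F) M w v) * h2
  · rcases neg_one_pow_eq_or F k with h | h
    · right
      refine ⟨h2, fun v => sf (RingHom.id F) M v v, ?_, ?_⟩
      · have hpol : QuadraticMap.polar (fun v => sf (RingHom.id F) M v v) = fun v w => 2 * sf (RingHom.id F) M v w := by
          funext v w
          unfold QuadraticMap.polar
          show sf (RingHom.id F) M (v + w) (v + w) - sf (RingHom.id F) M v v - sf (RingHom.id F) M w w = _
          rw [sf_add_left, sf_add_right, sf_add_right, hsym w v, h]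
          ring
        refine ⟨?_, ?_, ?_⟩
        · intro c v
          show sf (RingHom.id F) M (c • v) (c • v) = _
          rw [sf_smul_left, sf_smul_right]
          simp only [RingHom.id_apply]
          ring
        · rw [hpol]
          exact
            { add_left := fun x y v => by rw [sf_add_left]; ring
              smul_left := fun c x v => by rw [sf_smul_left]; ring
              add_right := fun v x y => by rw [sf_add_right]; ring
              smul_right := fun c v x => by rw [sf_smul_right]; simp only [RingHom.id_apply]; ring }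
        · rw [hpol]
          intro v hv
          obtain ⟨⟨x, hx⟩, ⟨y, hy⟩⟩ := hnd v hv
          exact ⟨⟨x, mul_ne_zero h2 hx⟩, ⟨y, mul_ne_zero h2 hy⟩⟩
      · intro g hg
        obtain ⟨c, hc⟩ := hle hg
        exact ⟨c, fun v => hc v v⟩
    · left
      apply hmain
      intro v w
      rw [hsym v w, h]
      ring

end Cfsg.Agent.H29.AscT
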