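import Mathlib
import Cfsg.Agent.H29_Asc4
import Cfsg.Agent.H29_AscT2

set_option autoImplicit false

/-! enveloping algebras of groups of matrices; groups outside the geometric classes -/

namespace Cfsg.Agent.H29.Asc

open Matrix Module Cfsg.Agent.H29.Clifford Cfsg.Geo Cfsg.Agent.H29.AscT

variable {F : Type*} [Field F] {n : ℕ}

/-- the enveloping algebra of a group of matrices -/
noncomputable def env (P : Subgroup (GL (Fin n) F)) : Subalgebra F (Module.End F (Fin n → F)) :=
  Algebra.adjoin F (tl n F '' matrixSet P)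

theorem mem_env {P : Subgroup (GL (Fin n) F)} {x : GL (Fin n) F} (hx : x ∈ P) :
    tl n F (x : Matrix (Fin n) (Fin n) F) ∈ env P :=
  Algebra.subset_adjoin ⟨_, ⟨x, hx, rfl⟩, rfl⟩

theorem env_mono {P Q : Subgroup (GL (Fin n) F)} (h : P ≤ Q) : env P ≤ env Q := by
  apply Algebra.adjoin_mono
  apply Set.image_mono
  exact Set.image_mono h

theorem env_eq_span (P : Subgroup (GL (Fin n) F)) :
    Subalgebra.toSubmodule (env P) = Submodule.span F (tl n F '' matrixSet P) := by
  unfold env
  rw [Algebra.adjoin_eq_span]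
  congr 1
  let S : Submonoid (Module.End F (Fin n → F)) :=
    { carrier := tl n F '' matrixSet P
      mul_mem' := by
        rintro _ _ ⟨_, ⟨x, hx, rfl⟩, rfl⟩ ⟨_, ⟨y, hy, rfl⟩, rfl⟩
        refine ⟨_, ⟨x * y, P.mul_mem hx hy, rfl⟩, ?_⟩
        simp only [Units.val_mul, map_mul]
      one_mem' := ⟨_, ⟨1, P.one_mem, rfl⟩, by simp only [Units.val_one, map_one]⟩ }
  have h : Submonoid.closure (tl n F '' matrixSet P) = S := Submonoid.closure_eq S
  rw [h]
  rfl

theorem env_normalises {P : Subgroup (GL (Fin n) F)} {g : GL (Fin n) F}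
    (h1 : ∀ x ∈ P, g * x * g⁻¹ ∈ P) (h2 : ∀ x ∈ P, g⁻¹ * x * g ∈ P) :
    Normalises (env P) (glEquiv g) := by
  rw [normalises_iff]
  constructor
  · intro r hr
    induction hr using Algebra.adjoin_induction with
    | mem r hr =>
      obtain ⟨_, ⟨x, hx, rfl⟩, rfl⟩ := hr
      have : (cjA g).symm (tl n F (x : Matrix (Fin n) (Fin n) F)) =
          tl n F ((g⁻¹ * x * g : GL (Fin n) F) : Matrix (Fin n) (Fin n) F) := by
        rw [AlgEquiv.symm_apply_eq, cjA_tl, ← Units.val_mul, ← Units.val_mul]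
        congr 3
        group
      rw [this]
      exact mem_env (h2 x hx)
    | algebraMap c => rw [AlgEquiv.commutes]; exact Subalgebra.algebraMap_mem _ _
    | add x y _ _ hx hy => rw [map_add]; exact Subalgebra.add_mem _ hx hy
    | mul x y _ _ hx hy => rw [map_mul]; exact Subalgebra.mul_mem _ hx hy
  · intro r hr
    induction hr using Algebra.adjoin_induction with
    | mem r hr =>
      obtain ⟨_, ⟨x, hx, rfl⟩, rfl⟩ := hr
      have : cjA g (tl n F (x : Matrix (Fin n) (Fin n) F)) =
          tl n F ((g * x * g⁻¹ : GL (Fin n) F) : Matrix (Fin n) (Fin n) F) := by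
        rw [cjA_tl, ← Units.val_mul, ← Units.val_mul]
      rw [this]
      exact mem_env (h1 x hx)
    | algebraMap c => rw [AlgEquiv.commutes]; exact Subalgebra.algebraMap_mem _ _
    | add x y _ _ hx hy => rw [map_add]; exact Subalgebra.add_mem _ hx hy
    | mul x y _ _ hx hy => rw [map_mul]; exact Subalgebra.mul_mem _ hx hy

/-- commuting with the group means commuting with the enveloping algebra -/
theorem commute_env {P : Subgroup (GL (Fin n) F)} {u : Module.End F (Fin n → F)}
    (h : ∀ x ∈ P, u * tl n F (x : Matrix (Fin n) (Fin n) F) = tl n F (x : Matrix (Fin n) (Fin n) F) * u)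
    {r : Module.End F (Fin n → F)} (hr : r ∈ env P) : u * r = r * u := by
  induction hr using Algebra.adjoin_induction with
  | mem r hr =>
    obtain ⟨_, ⟨x, hx, rfl⟩, rfl⟩ := hr
    exact h x hx
  | algebraMap c => exact (Algebra.commutes c u).symm
  | add x y _ _ hx hy => rw [mul_add, add_mul, hx, hy]
  | mul x y _ _ hx hy => rw [← mul_assoc, hx, mul_assoc, hy, mul_assoc]

/-- subspaces stable under the group are stable under the enveloping algebra -/
theorem stable_env {P : Subgroup (GL (Fin n) F)} {W : Submodule F (Fin n → F)}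
    (h : ∀ x ∈ P, ∀ w ∈ W, (x : Matrix (Fin n) (Fin n) F) *ᵥ w ∈ W)
    {r : Module.End F (Fin n → F)} (hr : r ∈ env P) : ∀ w ∈ W, r w ∈ W := by
  induction hr using Algebra.adjoin_induction with
  | mem r hr =>
    obtain ⟨_, ⟨x, hx, rfl⟩, rfl⟩ := hr
    exact h x hx
  | algebraMap c => intro w hw; exact W.smul_mem c hw
  | add x y _ _ hx hy => intro w hw; exact W.add_mem (hx w hw) (hy w hw)
  | mul x y _ _ hx hy => intro w hw; exact hx _ (hy w hw)

/-- the algebra of all operators has only scalars as centre and acts irreducibly -/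
theorem top_irred {W : Submodule F (Fin n → F)}
    (h : ∀ r : Module.End F (Fin n → F), ∀ w ∈ W, r w ∈ W) : W = ⊥ ∨ W = ⊤ := by
  by_cases hW : W = ⊥
  · exact Or.inl hW
  · right
    obtain ⟨w, hw, hw0⟩ := W.exists_mem_ne_zero_of_ne_bot hW
    rw [eq_top_iff]
    intro v _
    obtain ⟨f, hf, -⟩ := Submodule.exists_le_ker_of_notMem (p := (⊥ : Submodule F (Fin n → F))) (v := w)
      (by rwa [Submodule.mem_bot])
    have h1 := h ((f w)⁻¹ • f.smulRight v) w hw
    rw [LinearMap.smul_apply, LinearMap.smulRight_apply, smul_smul, inv_mul_cancel₀ hf, one_smul] at h1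
    exact h1

theorem centre_top {u : Module.End F (Fin n → F)} (h : ∀ r : Module.End F (Fin n → F), u * r = r * u) :
    ∃ c : F, u = c • 1 := by
  have : u ∈ Subalgebra.center F (Module.End F (Fin n → F)) := by
    rw [Subalgebra.mem_center_iff]
    exact fun b => (h b).symm
  have hc := Algebra.IsCentral.center_eq_bot F (Module.End F (Fin n → F))
  rw [hc] at this
  obtain ⟨c, hc⟩ := Algebra.mem_bot.1 this
  exact ⟨c, by rw [← hc, Algebra.algebraMap_eq_smul_one]⟩

theorem absIrr_of_env_top {P : Subgroup (GL (Fin n) F)} (h : env P = ⊤) :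
    ActsAbsolutelyIrreducibly (matrixSet P) := by
  constructor
  · intro W hW
    apply top_irred
    intro r w hw
    exact stable_env (P := P) (fun x hx w hw => hW _ ⟨x, hx, rfl⟩ ⟨w, hw, rfl⟩)
      (r := r) (by rw [h]; trivial) w hw
  · intro M hM
    obtain ⟨c, hc⟩ := centre_top (u := tl n F M) (by
      intro r
      apply commute_env (P := P) _ (by rw [h]; trivial)
      intro x hx
      rw [← map_mul, ← map_mul, hM _ ⟨x, hx, rfl⟩])
    refine ⟨c, ?_⟩
    apply (tl n F).injective
    rw [hc, map_smul, map_one]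

/-- a group whose enveloping algebra has dimension one is scalar -/
theorem scalar_of_finrank (hn : 0 < n) {P : Subgroup (GL (Fin n) F)} (h : finrank F (env P) = 1) :
    P ≤ scalars (Fin n) F := by
  haveI : Nonempty (Fin n) := ⟨⟨0, hn⟩⟩
  haveI : Nontrivial (Fin n → F) := inferInstance
  haveI hfree : Module.Free F (env P) := Module.Free.of_divisionRing F (env P)
  have h1 : env P = ⊥ := Subalgebra.finrank_eq_one_iff.1 h
  intro x hx
  have h2 := mem_env hx
  rw [h1, Algebra.mem_bot] at h2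
  obtain ⟨c, hc⟩ := h2
  have h3 : (x : Matrix (Fin n) (Fin n) F) = c • 1 := by
    apply (tl n F).injective
    rw [← hc, map_smul, map_one, Algebra.algebraMap_eq_smul_one]
  have hc0 : c ≠ 0 := by
    rintro rfl
    rw [zero_smul] at h3
    have h4 := x.mul_inv
    rw [h3, zero_mul] at h4
    exact zero_ne_one h4
  rw [mem_scalars_iff]
  exact ⟨Units.mk0 c hc0, h3⟩

/-- `G` lies in no member of the geometric classes -/
structure NonGeom [Fintype F] (G : Subgroup (GL (Fin n) F)) : Prop where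
  irr : ActsIrreducibly (matrixSet G)
  prim : ∀ (m t : ℕ) (D : Fin t → Submodule F (Fin n → F)), 2 ≤ t → IsMDecomposition m D →
      ¬ G ≤ decompositionStabilizer D
  fld : ∀ (r : ℕ) (K : Subalgebra F (Matrix (Fin n) (Fin n) F)), r.Prime →
      IsFieldSubalgebra r K → ¬ G ≤ subalgebraNormalizer K
  ten : ∀ (n₁ n₂ : ℕ) (e : Fin n ≃ Fin n₁ × Fin n₂) (P : GL (Fin n) F), 2 ≤ n₁ → n₁ < n₂ →
      ¬ G ≤ tensorProductSubgroup n₁ n₂ e P
  sub : ∀ (F₀ : Subfield F) (r : ℕ) (P : GL (Fin n) F), r.Prime → Fintype.card F = Nat.card F₀ ^ r →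
      ¬ G ≤ subfieldSubgroup F₀ P
  sty : ∀ (r m : ℕ) (R : Subgroup (GL (Fin n) F)), n = r ^ m → IsLinearSymplecticTypeData r R →
      ¬ G ≤ subgroupNormalizer R
  wr : ∀ (m t : ℕ) (e : Fin n ≃ (Fin t → Fin m)) (P : GL (Fin n) F), 3 ≤ m → 2 ≤ t →
      ¬ G ≤ tensorWreathSubgroup m t e P
  sp : ∀ f : (Fin n → F) → (Fin n → F) → F, IsSymplecticForm f → ¬ G ≤ similarityGroup f
  un : ∀ (σ : F ≃+* F) (f : (Fin n → F) → (Fin n → F) → F), IsUnitaryForm σ f → ¬ G ≤ similarityGroup f
  qu : ∀ Q : (Fin n → F) → F, IsNondegenerateQuadraticForm Q → Odd (Fintype.card F) →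
      ¬ G ≤ quadSimilarityGroup Q

theorem odd_card_of_two_ne [Fintype F] (h : (2 : F) ≠ 0) : Odd (Fintype.card F) := by
  by_contra hcon
  rw [Nat.not_odd_iff_even] at hcon
  apply h
  obtain ⟨p, hp⟩ := CharP.exists F
  haveI := hp
  have hpp : p.Prime := CharP.char_is_prime F p
  obtain ⟨k, -, hk⟩ := FiniteField.card F p
  rw [hk] at hcon
  have h2 : p = 2 := by
    rw [Nat.even_pow] at hcon
    rcases hpp.eq_two_or_odd' with h | h
    · exact h
    · exact absurd hcon.1 (Nat.not_even_iff_odd.2 h)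
  subst h2
  exact CharP.cast_eq_zero F 2

/-- no tensor power of two dimensional spaces -/
theorem NonGeom.wr2 [Fintype F] {G : Subgroup (GL (Fin n) F)} (hG : NonGeom G) {k : ℕ} (hk : 0 < k)
    (e : Fin n ≃ (Fin k → Fin 2)) (P : GL (Fin n) F) : ¬ G ≤ tensorWreathSubgroup 2 k e P := by
  intro h
  rcases wreath2_class8 hk e P with ⟨f, hf, hle⟩ | ⟨h2, Q, hQ, hle⟩
  · exact hG.sp f hf (h.trans hle)
  · exact hG.qu Q hQ (odd_card_of_two_ne h2) (h.trans hle)

/-- The fundamental dichotomy. -/
theorem NonGeom.dichotomy [Fintype F] (hn : 0 < n) {G : Subgroup (GL (Fin n) F)} (hG : NonGeom G)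
    {N : Subgroup (GL (Fin n) F)} (hN : ∀ g ∈ G, ∀ x ∈ N, g * x * g⁻¹ ∈ N) :
    N ≤ scalars (Fin n) F ∨ env N = ⊤ := by
  haveI : Nonempty (Fin n) := ⟨⟨0, hn⟩⟩
  haveI : Nontrivial (Fin n → F) := inferInstance
  have hnorm : ∀ g ∈ G, Normalises (env N) (glEquiv g) := by
    intro g hg
    apply env_normalises (hN g hg)
    intro x hx
    have := hN g⁻¹ (G.inv_mem hg) x hx
    rwa [inv_inv] at this
  obtain ⟨w, hw, ⟨e⟩⟩ := matrix_algebra hn G hG.irr hG.prim hG.fld (env N) hnorm
  obtain ⟨t, ε, P, hwt, hten⟩ := tensor_of_matrix_algebra hn (env N) hw e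
  have hfin := finrank_of_equiv (env N) e
  have hle : G ≤ tensorProductSubgroup w t ε P := fun g hg => hten g (hnorm g hg)
  have ht : 0 < t := by
    rcases Nat.eq_zero_or_pos t with h | h
    · subst h; omega
    · exact h
  rcases Nat.eq_or_lt_of_le (Nat.succ_le_of_lt hw) with h1 | h1
  · left
    apply scalar_of_finrank hn
    rw [hfin, ← h1]
  rcases Nat.eq_or_lt_of_le (Nat.succ_le_of_lt ht) with h2 | h2
  · right
    have hwn : w = n := by rw [← hwt, ← h2]; simp
    apply Subalgebra.eq_of_le_of_finrank_eq le_top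
    rw [hfin, hwn]
    rw [(Subalgebra.topEquiv (R := F) (A := Module.End F (Fin n → F))).toLinearEquiv.finrank_eq,
      Module.finrank_linearMap, Module.finrank_fintype_fun_eq_card, Fintype.card_fin]
  exfalso
  rcases lt_trichotomy w t with h | h | h
  · exact hG.ten w t ε P h1 h hle
  · subst h
    have hle2 := hle.trans (tensor_le_wreath ε P)
    rcases Nat.eq_or_lt_of_le (show 2 ≤ w from h1) with h3 | h3
    · subst h3
      exact hG.wr2 (by norm_num) _ _ hle2
    · exact hG.wr w 2 _ _ h3 (le_refl _) hle2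
  · exact hG.ten t w _ P h2 h (hle.trans (tensor_swap ε P))

end Cfsg.Agent.H29.Asc
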