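import Mathlib
import Cfsg.Agent.H29_Asc2
import Cfsg.Agent.H29_Asc5

set_option autoImplicit false

/-! subfield groups -/

namespace Cfsg.Agent.H29.Asc

open Matrix Module Cfsg.Geo

variable {F : Type*} [Field F] {n : ℕ}

theorem mem_subfieldSubgroup_iff {F₀ : Subfield F} {P g : GL (Fin n) F} :
    g ∈ subfieldSubgroup F₀ P ↔ P⁻¹ * g * P ∈
      ((Matrix.GeneralLinearGroup.map (n := Fin n) (F₀.subtype : F₀ →+* F)).range ⊔ scalars (Fin n) F) := by
  constructor
  · rintro ⟨x, hx, rfl⟩
    have : P⁻¹ * (MulAut.conj P).toMonoidHom x * P = x := by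
      simp [mul_assoc]
    rw [this]; exact hx
  · intro h
    refine ⟨_, h, ?_⟩
    simp [mul_assoc]

/-- a matrix which becomes defined over `F₀` after multiplying with a nonzero scalar -/
theorem mem_range_sup (F₀ : Subfield F) (g : GL (Fin n) F) (c : F) (hc : c ≠ 0)
    (h : ∀ i j, c * (g : Matrix (Fin n) (Fin n) F) i j ∈ F₀) :
    g ∈ ((Matrix.GeneralLinearGroup.map (n := Fin n) (F₀.subtype : F₀ →+* F)).range ⊔ scalars (Fin n) F) := by
  let M : Matrix (Fin n) (Fin n) F₀ := Matrix.of fun i j => ⟨c * (g : Matrix (Fin n) (Fin n) F) i j, h i j⟩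
  have hM : M.map (F₀.subtype : F₀ →+* F) = c • (g : Matrix (Fin n) (Fin n) F) := by
    ext i j; rfl
  have hdet : M.det ≠ 0 := by
    intro h0
    have h1 : (F₀.subtype : F₀ →+* F) M.det = (c • (g : Matrix (Fin n) (Fin n) F)).det := by
      rw [RingHom.map_det, ← hM]; rfl
    rw [h0, map_zero, Matrix.det_smul] at h1
    have h2 : (g : Matrix (Fin n) (Fin n) F).det ≠ 0 :=
      ((Matrix.isUnit_iff_isUnit_det _).1 g.isUnit).ne_zero
    exact mul_ne_zero (pow_ne_zero _ hc) h2 h1.symm
  let m : GL (Fin n) F₀ := Matrix.GeneralLinearGroup.mkOfDetNeZero M hdet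
  have hg : g = Matrix.GeneralLinearGroup.map (F₀.subtype : F₀ →+* F) m *
      (Units.map (Matrix.scalar (Fin n) : F →+* Matrix (Fin n) (Fin n) F).toMonoidHom (Units.mk0 c hc))⁻¹ := by
    rw [eq_mul_inv_iff_mul_eq]
    apply Units.ext
    rw [Units.val_mul]
    show (g : Matrix (Fin n) (Fin n) F) * Matrix.scalar (Fin n) c = M.map (F₀.subtype : F₀ →+* F)
    rw [hM, Matrix.scalar_apply, ← Matrix.smul_one_eq_diagonal, Matrix.mul_smul, mul_one]
  rw [hg]
  apply Subgroup.mul_mem
  · exact Subgroup.mem_sup_left ⟨m, rfl⟩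
  · exact Subgroup.mem_sup_right (Subgroup.inv_mem _ ⟨_, rfl⟩)

/-- normalising the matrices over the subfield -/
theorem mem_range_of_normalises (F₀ : Subfield F) (hn : 0 < n) (g : GL (Fin n) F)
    (h : ∀ X : Matrix (Fin n) (Fin n) F, (∀ i j, X i j ∈ F₀) → ∀ i j,
      ((g : Matrix (Fin n) (Fin n) F) * X * ((g⁻¹ : GL (Fin n) F) : Matrix (Fin n) (Fin n) F)) i j ∈ F₀) :
    g ∈ ((Matrix.GeneralLinearGroup.map (n := Fin n) (F₀.subtype : F₀ →+* F)).range ⊔ scalars (Fin n) F) := by
  haveI : Nonempty (Fin n) := ⟨⟨0, hn⟩⟩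
  obtain ⟨j, b, hjb⟩ : ∃ j b, ((g⁻¹ : GL (Fin n) F) : Matrix (Fin n) (Fin n) F) j b ≠ 0 := by
    by_contra hcon
    push Not at hcon
    have h1 : ((g⁻¹ : GL (Fin n) F) : Matrix (Fin n) (Fin n) F) = 0 := Matrix.ext hcon
    have h2 := g.mul_inv
    rw [h1, mul_zero] at h2
    exact zero_ne_one h2
  apply mem_range_sup F₀ g _ hjb
  intro a i
  have h1 := h (single i j 1) (by
    intro x y
    rw [Matrix.single_apply]
    split_ifs
    · exact F₀.one_mem
    · exact F₀.zero_mem) a b
  have h2 : ((g : Matrix (Fin n) (Fin n) F) * (single i j 1 : Matrix (Fin n) (Fin n) F) *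
      ((g⁻¹ : GL (Fin n) F) : Matrix (Fin n) (Fin n) F)) a b
      = ((g⁻¹ : GL (Fin n) F) : Matrix (Fin n) (Fin n) F) j b * (g : Matrix (Fin n) (Fin n) F) a i := by
    rw [Matrix.mul_apply, Finset.sum_eq_single j]
    · rw [Matrix.mul_single_apply_same]
      ring
    · intro y _ hy
      rw [Matrix.mul_single_apply_of_ne (hbj := hy), zero_mul]
    · simp
  rwa [h2] at h1

/-- descent of spanning sets -/
theorem span_descent (F₀ : Subfield F) {κ : Type*} [Fintype κ] [DecidableEq κ] (S : Set (κ → F₀))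
    (h : Submodule.span F ((fun v : κ → F₀ => fun i => (v i : F)) '' S) = ⊤) :
    Submodule.span F₀ S = ⊤ := by
  by_contra hcon
  obtain ⟨f, hf0, hf⟩ := Submodule.exists_le_ker_of_lt_top _ (lt_top_iff_ne_top.2 hcon)
  apply hf0
  -- extend the functional
  let f' : (κ → F) →ₗ[F] F := Fintype.linearCombination F (fun i => ((f (Pi.single i 1) : F₀) : F))
  have hff : ∀ v : κ → F₀, f' (fun i => (v i : F)) = ((f v : F₀) : F) := by
    intro v
    have hv : v = ∑ i, v i • (Pi.single i (1 : F₀) : κ → F₀) := by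
      conv_lhs => rw [pi_eq_sum_univ' v]
    conv_rhs => rw [hv]
    rw [map_sum]
    simp only [f', Fintype.linearCombination_apply, map_smul, smul_eq_mul]
    rw [← Subfield.coe_subtype, map_sum]
    simp
  have h1 : ∀ w, f' w = 0 := by
    intro w
    have hw : w ∈ Submodule.span F ((fun v : κ → F₀ => fun i => (v i : F)) '' S) := by rw [h]; trivial
    induction hw using Submodule.span_induction with
    | mem w hw =>
      obtain ⟨v, hv, rfl⟩ := hw
      rw [hff]
      have : f v = 0 := hf (Submodule.subset_span hv)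
      rw [this]; rfl
    | zero => exact map_zero _
    | add x y _ _ hx hy => rw [map_add, hx, hy, add_zero]
    | smul c x _ hx => rw [map_smul, hx, smul_zero]
  apply LinearMap.ext
  intro v
  have := hff v
  rw [h1] at this
  exact Subtype.ext this.symm

/-- the normaliser of an absolutely irreducible group realisable over `F₀` lies in the subfield group -/
theorem normaliser_le_subfield (F₀ : Subfield F) (hn : 0 < n) {P : Subgroup (GL (Fin n) F)} (henv : env P = ⊤)
    (B : GL (Fin n) F) (hB : ∀ s ∈ matrixSet P, ∀ i j,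
      ((B : Matrix (Fin n) (Fin n) F) * s * ((B⁻¹ : GL (Fin n) F) : Matrix (Fin n) (Fin n) F)) i j ∈ F₀)
    {g : GL (Fin n) F} (hg : ∀ x ∈ P, g * x * g⁻¹ ∈ P) : g ∈ subfieldSubgroup F₀ B⁻¹ := by
  classical
  rw [mem_subfieldSubgroup_iff, inv_inv]
  apply mem_range_of_normalises F₀ hn
  -- the span over F₀
  let S : Set (Fin n × Fin n → F₀) := {v | ∃ x ∈ P, ∀ i j,
    (v (i, j) : F) = ((B : Matrix (Fin n) (Fin n) F) * (x : GL (Fin n) F) *
      ((B⁻¹ : GL (Fin n) F) : Matrix (Fin n) (Fin n) F)) i j}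
  have hS : Submodule.span F₀ S = ⊤ := by
    apply span_descent
    rw [eq_top_iff]
    intro w _
    -- w as a matrix
    let W : Matrix (Fin n) (Fin n) F := Matrix.of fun i j => w (i, j)
    have hW : tl n F (((B⁻¹ : GL (Fin n) F) : Matrix (Fin n) (Fin n) F) * W * (B : Matrix (Fin n) (Fin n) F)) ∈
        Subalgebra.toSubmodule (env P) := by rw [henv]; trivial
    rw [env_eq_span] at hW
    have key : ∀ r : Module.End F (Fin n → F), r ∈ Submodule.span F (tl n F '' matrixSet P) →
        (fun ij : Fin n × Fin n => ((B : Matrix (Fin n) (Fin n) F) * (tl n F).symm r *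
          ((B⁻¹ : GL (Fin n) F) : Matrix (Fin n) (Fin n) F)) ij.1 ij.2) ∈
          Submodule.span F ((fun v : Fin n × Fin n → F₀ => fun i => (v i : F)) '' S) := by
      intro r hr
      induction hr using Submodule.span_induction with
      | mem r hr =>
        obtain ⟨_, ⟨x, hx, rfl⟩, rfl⟩ := hr
        apply Submodule.subset_span
        refine ⟨fun ij => ⟨((B : Matrix (Fin n) (Fin n) F) * (x : GL (Fin n) F) *
          ((B⁻¹ : GL (Fin n) F) : Matrix (Fin n) (Fin n) F)) ij.1 ij.2, hB _ ⟨x, hx, rfl⟩ _ _⟩, ⟨x, hx, fun i j => rfl⟩, ?_⟩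
        funext ij
        simp
      | zero =>
        have : (fun ij : Fin n × Fin n => ((B : Matrix (Fin n) (Fin n) F) * (tl n F).symm 0 *
          ((B⁻¹ : GL (Fin n) F) : Matrix (Fin n) (Fin n) F)) ij.1 ij.2) = 0 := by
          funext ij; rw [map_zero]; simp
        rw [this]; exact Submodule.zero_mem _
      | add x y _ _ hx hy =>
        have : (fun ij : Fin n × Fin n => ((B : Matrix (Fin n) (Fin n) F) * (tl n F).symm (x + y) *
          ((B⁻¹ : GL (Fin n) F) : Matrix (Fin n) (Fin n) F)) ij.1 ij.2) =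
          (fun ij : Fin n × Fin n => ((B : Matrix (Fin n) (Fin n) F) * (tl n F).symm x *
          ((B⁻¹ : GL (Fin n) F) : Matrix (Fin n) (Fin n) F)) ij.1 ij.2) +
          (fun ij : Fin n × Fin n => ((B : Matrix (Fin n) (Fin n) F) * (tl n F).symm y *
          ((B⁻¹ : GL (Fin n) F) : Matrix (Fin n) (Fin n) F)) ij.1 ij.2) := by
          funext ij
          rw [map_add, Matrix.mul_add, Matrix.add_mul]
          rfl
        rw [this]; exact Submodule.add_mem _ hx hy
      | smul c x _ hx =>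
        have : (fun ij : Fin n × Fin n => ((B : Matrix (Fin n) (Fin n) F) * (tl n F).symm (c • x) *
          ((B⁻¹ : GL (Fin n) F) : Matrix (Fin n) (Fin n) F)) ij.1 ij.2) =
          c • (fun ij : Fin n × Fin n => ((B : Matrix (Fin n) (Fin n) F) * (tl n F).symm x *
          ((B⁻¹ : GL (Fin n) F) : Matrix (Fin n) (Fin n) F)) ij.1 ij.2) := by
          funext ij
          rw [map_smul, Matrix.mul_smul, Matrix.smul_mul]
          rfl
        rw [this]; exact Submodule.smul_mem _ _ hx
    have h1 := key _ hW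
    have h2 : (fun ij : Fin n × Fin n => ((B : Matrix (Fin n) (Fin n) F) * (tl n F).symm
        (tl n F (((B⁻¹ : GL (Fin n) F) : Matrix (Fin n) (Fin n) F) * W * (B : Matrix (Fin n) (Fin n) F))) *
          ((B⁻¹ : GL (Fin n) F) : Matrix (Fin n) (Fin n) F)) ij.1 ij.2) = w := by
      funext ij
      rw [AlgEquiv.symm_apply_apply]
      have h3 : (B : Matrix (Fin n) (Fin n) F) * (((B⁻¹ : GL (Fin n) F) : Matrix (Fin n) (Fin n) F) * W *
          (B : Matrix (Fin n) (Fin n) F)) * ((B⁻¹ : GL (Fin n) F) : Matrix (Fin n) (Fin n) F) = W := by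
        calc _ = ((B : Matrix (Fin n) (Fin n) F) * ((B⁻¹ : GL (Fin n) F) : Matrix (Fin n) (Fin n) F)) * W *
              ((B : Matrix (Fin n) (Fin n) F) * ((B⁻¹ : GL (Fin n) F) : Matrix (Fin n) (Fin n) F)) := by
              simp only [mul_assoc]
          _ = W := by rw [B.mul_inv, one_mul, mul_one]
      rw [h3]
      rfl
    rwa [h2] at h1
  intro X hX
  have hv : (fun ij : Fin n × Fin n => (⟨X ij.1 ij.2, hX _ _⟩ : F₀)) ∈ Submodule.span F₀ S := by
    rw [hS]; trivial
  have key : ∀ v : Fin n × Fin n → F₀, v ∈ Submodule.span F₀ S → ∀ i j,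
      (((B * g * B⁻¹ : GL (Fin n) F) : Matrix (Fin n) (Fin n) F) * (Matrix.of fun i j => (v (i, j) : F)) *
        (((B * g * B⁻¹)⁻¹ : GL (Fin n) F) : Matrix (Fin n) (Fin n) F)) i j ∈ F₀ := by
    intro v hv
    induction hv using Submodule.span_induction with
    | mem v hv =>
      obtain ⟨x, hx, hxv⟩ := hv
      have h1 : (Matrix.of fun i j => (v (i, j) : F)) = ((B * x * B⁻¹ : GL (Fin n) F) : Matrix (Fin n) (Fin n) F) := by
        ext i j
        rw [Matrix.of_apply, hxv, Units.val_mul, Units.val_mul]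
      rw [h1, ← Units.val_mul, ← Units.val_mul]
      have h2 : B * g * B⁻¹ * (B * x * B⁻¹) * (B * g * B⁻¹)⁻¹ = B * (g * x * g⁻¹) * B⁻¹ := by group
      rw [h2, Units.val_mul, Units.val_mul]
      exact hB _ ⟨_, hg x hx, rfl⟩
    | zero =>
      intro i j
      have : (Matrix.of fun i j : Fin n => (((0 : Fin n × Fin n → F₀) (i, j) : F₀) : F)) = 0 := by
        ext i j; rfl
      rw [this, Matrix.mul_zero, Matrix.zero_mul]
      exact F₀.zero_mem
    | add x y _ _ hx hy =>
      intro i j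
      have : (Matrix.of fun i j : Fin n => (((x + y) (i, j) : F₀) : F)) =
          (Matrix.of fun i j => (x (i, j) : F)) + (Matrix.of fun i j => (y (i, j) : F)) := by
        ext i j; rfl
      rw [this, Matrix.mul_add, Matrix.add_mul]
      exact F₀.add_mem (hx i j) (hy i j)
    | smul c x _ hx =>
      intro i j
      have : (Matrix.of fun i j : Fin n => (((c • x) (i, j) : F₀) : F)) =
          (c : F) • (Matrix.of fun i j => (x (i, j) : F)) := by
        ext i j; rfl
      rw [this, Matrix.mul_smul, Matrix.smul_mul]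
      exact F₀.mul_mem c.2 (hx i j)
  exact key _ hv

theorem subfield_mono {F₀ F₁ : Subfield F} (h : F₀ ≤ F₁) (P : GL (Fin n) F) :
    subfieldSubgroup F₀ P ≤ subfieldSubgroup F₁ P := by
  intro g hg
  rw [mem_subfieldSubgroup_iff] at hg ⊢
  revert hg
  generalize P⁻¹ * g * P = g
  intro hg
  have hle : (Matrix.GeneralLinearGroup.map (n := Fin n) (F₀.subtype : F₀ →+* F)).range ≤
      (Matrix.GeneralLinearGroup.map (n := Fin n) (F₁.subtype : F₁ →+* F)).range := by
    rintro _ ⟨x, rfl⟩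
    refine ⟨Matrix.GeneralLinearGroup.map (Subfield.inclusion h) x, ?_⟩
    apply Units.ext
    ext i j
    rfl
  exact (sup_le_sup_right hle _) hg

/-- a proper subfield of a finite field is contained in a subfield of prime codegree -/
theorem exists_max_subfield [Fintype F] (F₀ : Subfield F) (h : F₀ ≠ ⊤) :
    ∃ (F₁ : Subfield F) (r : ℕ), F₀ ≤ F₁ ∧ r.Prime ∧ Fintype.card F = Nat.card F₁ ^ r := by
  have h1 : 1 < finrank F₀ F := by
    by_contra hcon
    have hpos : 0 < finrank F₀ F := Module.finrank_pos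
    have h1 : finrank F₀ F = 1 := by omega
    apply h
    rw [eq_top_iff]
    intro x _
    obtain ⟨c, hc⟩ := (finrank_eq_one_iff_of_nonzero' (1 : F) one_ne_zero).1 h1 x
    rw [← hc]
    show (c : F) * 1 ∈ F₀
    rw [mul_one]
    exact c.2
  obtain ⟨r, E, hr, hE⟩ := exists_intermediate_top F₀ F h1
  refine ⟨E.toSubfield, r, ?_, hr, ?_⟩
  · intro x hx
    exact E.algebraMap_mem ⟨x, hx⟩
  · have := Module.natCard_eq_pow_finrank (K := E) (V := F)
    rw [hE, Nat.card_eq_fintype_card] at this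
    rw [this]
    rfl

/-- realisability over a proper subfield puts the normaliser into a subfield group -/
theorem subfield_class [Fintype F] (hn : 0 < n) {P : Subgroup (GL (Fin n) F)} (henv : env P = ⊤)
    {F₀ : Subfield F} (h0 : F₀ ≠ ⊤) (hreal : RealisableOver F₀ (matrixSet P)) :
    ∃ (F₁ : Subfield F) (r : ℕ) (Q : GL (Fin n) F), r.Prime ∧ Fintype.card F = Nat.card F₁ ^ r ∧
      ∀ g : GL (Fin n) F, (∀ x ∈ P, g * x * g⁻¹ ∈ P) → g ∈ subfieldSubgroup F₁ Q := by
  obtain ⟨F₁, r, hle, hr, hcard⟩ := exists_max_subfield F₀ h0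
  obtain ⟨B, hB⟩ := hreal
  exact ⟨F₁, r, B⁻¹, hr, hcard, fun g hg => subfield_mono hle _ (normaliser_le_subfield F₀ hn henv B hB hg)⟩

end Cfsg.Agent.H29.Asc
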