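import Mathlib
import Cfsg.Agent.H29_AscS

set_option autoImplicit false

/-! groups of symplectic type acting absolutely irreducibly -/

namespace Cfsg.Agent.H29.Asc

open Matrix Module Cfsg.Geo
open scoped commutatorElement

/-- eigenvectors with distinct characters are independent -/
theorem indep_of_characters {F V A J : Type*} [Field F] [AddCommGroup V] [Module F V]
    (T : A → Module.End F V) (v : J → V) (χ : J → A → F) (hv : ∀ j, v j ≠ 0)
    (hT : ∀ a j, T a (v j) = χ j a • v j) (hχ : Function.Injective χ) : LinearIndependent F v := by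
  classical
  rw [linearIndependent_iff']
  intro s g hg y hy
  have key : ∀ s : Finset J, y ∉ s → ∃ (S : Module.End F V) (t : J → F), (∀ j, S (v j) = t j • v j) ∧
      (∀ j ∈ s, t j = 0) ∧ t y ≠ 0 := by
    intro s
    induction s using Finset.induction_on with
    | empty => intro _; exact ⟨1, fun _ => 1, fun j => by simp, by simp, one_ne_zero⟩
    | insert i s hi ih =>
      intro hy
      have hyi : y ≠ i := by rintro rfl; exact hy (Finset.mem_insert_self _ _)
      obtain ⟨S, t, h1, h2, h3⟩ := ih (fun h => hy (Finset.mem_insert_of_mem h))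
      obtain ⟨a, ha⟩ : ∃ a, χ y a ≠ χ i a := by
        by_contra hcon
        push Not at hcon
        exact hyi (hχ (funext hcon))
      refine ⟨(T a - χ i a • 1) * S, fun j => (χ j a - χ i a) * t j, ?_, ?_, ?_⟩
      · intro j
        rw [Module.End.mul_apply, h1, map_smul, LinearMap.sub_apply, hT, LinearMap.smul_apply,
          Module.End.one_apply, ← sub_smul, smul_smul, mul_comm]
      · intro j hj
        rcases Finset.mem_insert.1 hj with rfl | hj
        · simp only [sub_self, zero_mul]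
        · simp only [h2 j hj, mul_zero]
      · exact mul_ne_zero (sub_ne_zero.2 ha) h3
  obtain ⟨S, t, h1, h2, h3⟩ := key (s.erase y) (Finset.notMem_erase y s)
  have h4 := congrArg S hg
  rw [map_sum, map_zero, Finset.sum_eq_single y] at h4
  · rw [map_smul, h1, smul_smul] at h4
    rcases smul_eq_zero.1 h4 with h | h
    · exact (mul_eq_zero.1 h).resolve_right h3
    · exact absurd h (hv y)
  · intro j hj hjy
    rw [map_smul, h1, h2 j (Finset.mem_erase.2 ⟨hjy, hj⟩), zero_smul, smul_zero]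
  · intro h; exact absurd hy h

variable {F : Type*} [Field F] {n : ℕ}

/-- the scalar embedding -/
def sc (n : ℕ) (F : Type*) [Field F] : Fˣ →* GL (Fin n) F :=
  Units.map (Matrix.scalar (Fin n) : F →+* Matrix (Fin n) (Fin n) F).toMonoidHom

theorem sc_coe (c : Fˣ) : ((sc n F c : GL (Fin n) F) : Matrix (Fin n) (Fin n) F) = (c : F) • 1 := by
  show Matrix.scalar (Fin n) (c : F) = _
  rw [Matrix.scalar_apply, ← Matrix.smul_one_eq_diagonal]

theorem mem_scalars {x : GL (Fin n) F} : x ∈ scalars (Fin n) F ↔ ∃ c : Fˣ, sc n F c = x := Iff.rfl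

theorem sc_mem (c : Fˣ) : sc n F c ∈ scalars (Fin n) F := ⟨c, rfl⟩

theorem sc_injective (hn : 0 < n) : Function.Injective (sc n F) := by
  intro a b h
  have h1 := congrArg (fun x : GL (Fin n) F => (x : Matrix (Fin n) (Fin n) F) ⟨0, hn⟩ ⟨0, hn⟩) h
  simp only [sc_coe, Matrix.smul_apply, Matrix.one_apply_eq, smul_eq_mul, mul_one] at h1
  exact Units.ext h1

theorem sc_comm (c : Fˣ) (g : GL (Fin n) F) : sc n F c * g = g * sc n F c := by
  apply Units.ext
  rw [Units.val_mul, Units.val_mul, sc_coe, Matrix.smul_mul, Matrix.mul_smul, one_mul, mul_one]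

/-- an element commuting with an absolutely irreducible group is scalar -/
theorem scalar_of_commute {E : Subgroup (GL (Fin n) F)} (hn : 0 < n) (henv : env E = ⊤) {x : GL (Fin n) F}
    (h : ∀ y ∈ E, x * y = y * x) : x ∈ scalars (Fin n) F := by
  haveI : Nonempty (Fin n) := ⟨⟨0, hn⟩⟩
  obtain ⟨c, hc⟩ := (absIrr_of_env_top henv).2 x (by
    rintro _ ⟨y, hy, rfl⟩
    rw [← Units.val_mul, ← Units.val_mul, h y hy])
  rw [mem_scalars_iff]
  have hc0 : c ≠ 0 := by
    rintro rfl
    rw [zero_smul] at hc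
    have h4 := x.mul_inv
    rw [hc, zero_mul] at h4
    exact zero_ne_one h4
  exact ⟨Units.mk0 c hc0, hc⟩

/-- the setting: a normalised group of symplectic type (containing all scalars) -/
structure ST (r : ℕ) (G E : Subgroup (GL (Fin n) F)) : Prop where
  hr : r.Prime
  Zle : scalars (Fin n) F ≤ E
  norm : ∀ g ∈ G, ∀ x ∈ E, g * x * g⁻¹ ∈ E
  comm : ∀ x ∈ E, ∀ y ∈ E, ⁅x, y⁆ ∈ scalars (Fin n) F
  pow : ∀ x ∈ E, x ^ r ∈ scalars (Fin n) F
  env : env E = ⊤
  min : ∀ M : Subgroup (GL (Fin n) F), scalars (Fin n) F ≤ M → M ≤ E → (∀ g ∈ G, ∀ x ∈ M, g * x * g⁻¹ ∈ M) →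
    M ≤ scalars (Fin n) F ∨ E ≤ M

variable {r : ℕ} {G E : Subgroup (GL (Fin n) F)}

/-- the setting from a minimal normal subgroup modulo scalars -/
theorem ST.of_minimal {N : Subgroup (GL (Fin n) F)} (hr : r.Prime)
    (hnorm : ∀ g ∈ G, ∀ x ∈ N, g * x * g⁻¹ ∈ N) (hcomm : ∀ x ∈ N, ∀ y ∈ N, ⁅x, y⁆ ∈ scalars (Fin n) F)
    (hpow : ∀ x ∈ N, x ^ r ∈ scalars (Fin n) F) (henv : Asc.env N = ⊤)
    (hmin : ∀ M : Subgroup (GL (Fin n) F), M ≤ N → (∀ g ∈ G, ∀ x ∈ M, g * x * g⁻¹ ∈ M) →
        M ≤ scalars (Fin n) F ∨ N ≤ M ⊔ scalars (Fin n) F) : ST r G (N ⊔ scalars (Fin n) F) := by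
  have hmem : ∀ x ∈ N ⊔ scalars (Fin n) F, ∃ y ∈ N, ∃ c : Fˣ, x = y * sc n F c := by
    intro x hx
    rw [Subgroup.mem_sup_of_normal_right] at hx
    obtain ⟨y, hy, _, ⟨c, rfl⟩, rfl⟩ := hx
    exact ⟨y, hy, c, rfl⟩
  refine ⟨hr, le_sup_right, ?_, ?_, ?_, ?_, ?_⟩
  · intro g hg x hx
    obtain ⟨y, hy, c, rfl⟩ := hmem x hx
    have : g * (y * sc n F c) * g⁻¹ = (g * y * g⁻¹) * sc n F c := by
      calc g * (y * sc n F c) * g⁻¹ = g * y * (sc n F c * g⁻¹) := by group
        _ = g * y * (g⁻¹ * sc n F c) := by rw [sc_comm]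
        _ = _ := by group
    rw [this]
    exact Subgroup.mul_mem _ (Subgroup.mem_sup_left (hnorm g hg y hy)) (Subgroup.mem_sup_right (sc_mem c))
  · intro x hx y hy
    obtain ⟨x, hx', c, rfl⟩ := hmem x hx
    obtain ⟨y, hy', d, rfl⟩ := hmem y hy
    have : ⁅x * sc n F c, y * sc n F d⁆ = ⁅x, y⁆ := by
      rw [commutatorElement_def, commutatorElement_def]
      calc x * sc n F c * (y * sc n F d) * (x * sc n F c)⁻¹ * (y * sc n F d)⁻¹
          = x * (sc n F c * y) * sc n F d * (sc n F c)⁻¹ * x⁻¹ * (sc n F d)⁻¹ * y⁻¹ := by group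
        _ = x * y * (sc n F c * (sc n F d * (sc n F c)⁻¹)) * x⁻¹ * (sc n F d)⁻¹ * y⁻¹ := by rw [sc_comm]; group
        _ = x * y * (sc n F c * ((sc n F c)⁻¹ * sc n F d)) * x⁻¹ * (sc n F d)⁻¹ * y⁻¹ := by rw [sc_comm d]
        _ = x * y * (sc n F d * x⁻¹) * (sc n F d)⁻¹ * y⁻¹ := by group
        _ = x * y * (x⁻¹ * sc n F d) * (sc n F d)⁻¹ * y⁻¹ := by rw [sc_comm]
        _ = _ := by group
    rw [this]
    exact hcomm x hx' y hy'
  · intro x hx
    obtain ⟨x, hx', c, rfl⟩ := hmem x hx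
    have h1 : Commute x (sc n F c) := (sc_comm c x).symm
    rw [h1.mul_pow, ← map_pow]
    exact Subgroup.mul_mem _ (hpow x hx') (sc_mem _)
  · rw [eq_top_iff, ← henv]
    exact env_mono le_sup_left
  · intro M hZM hME hM
    rcases hmin (M ⊓ N) inf_le_right (fun g hg x hx => ⟨hM g hg x hx.1, hnorm g hg x hx.2⟩) with h | h
    · left
      intro x hx
      obtain ⟨y, hy, c, rfl⟩ := hmem x (hME hx)
      have hyM : y ∈ M := by
        have := M.mul_mem hx (M.inv_mem (hZM (sc_mem c)))
        simpa using this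
      exact Subgroup.mul_mem _ (h ⟨hyM, hy⟩) (sc_mem c)
    · right
      apply sup_le
      · exact h.trans (sup_le inf_le_left hZM)
      · exact hZM

/-- commutators as scalars -/
theorem ST.exists_comm (h : ST r G E) (hn : 0 < n) {x y : GL (Fin n) F} (hx : x ∈ E) (hy : y ∈ E) :
    ∃ c : Fˣ, x * y = sc n F c * (y * x) ∧ c ^ r = 1 := by
  obtain ⟨c, hc⟩ := mem_scalars.1 (h.comm x hx y hy)
  refine ⟨c, ?_, ?_⟩
  · rw [hc, commutatorElement_def]; group
  · -- x y x⁻¹ = c y, so (x y x⁻¹)^r = c^r y^r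
    have h1 : x * y * x⁻¹ = sc n F c * y := by rw [hc, commutatorElement_def]; group
    have h2 : (x * y * x⁻¹) ^ r = x * y ^ r * x⁻¹ := by
      rw [conj_pow]
    obtain ⟨d, hd⟩ := mem_scalars.1 (h.pow y hy)
    have h3 : (sc n F c * y) ^ r = sc n F c ^ r * y ^ r := (show Commute (sc n F c) y from sc_comm c y).mul_pow r
    rw [h1, h3, ← hd, ← sc_comm d x, mul_inv_cancel_right] at h2
    have h4 : sc n F c ^ r = 1 := mul_right_cancel (h2.trans (one_mul _).symm)
    rw [← map_pow, ← map_one (sc n F)] at h4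
    exact sc_injective hn h4

/-- separation of cosets by commutators -/
theorem ST.scalar_of_central (h : ST r G E) (hn : 0 < n) {x : GL (Fin n) F}
    (hc : ∀ y ∈ E, x * y = y * x) : x ∈ scalars (Fin n) F := scalar_of_commute hn h.env hc

/-- The order of `E` modulo scalars. -/
theorem ST.card_quot [Finite F] (h : ST r G E) (hn : 0 < n) :
    (scalars (Fin n) F).relIndex E = n * n := by
  classical
  haveI : Nonempty (Fin n) := ⟨⟨0, hn⟩⟩
  set Z := (scalars (Fin n) F).subgroupOf E with hZ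
  let v : (E ⧸ Z) → Matrix (Fin n) (Fin n) F := fun j => ((j.out : E) : GL (Fin n) F)
  choose c hc1 hc2 using fun (x : E) (y : E) => h.exists_comm hn x.2 y.2
  let T : E → Module.End F (Matrix (Fin n) (Fin n) F) := fun y =>
    { toFun := fun M => ((y : GL (Fin n) F) : Matrix (Fin n) (Fin n) F) * M * (((y : GL (Fin n) F)⁻¹ : GL (Fin n) F) : Matrix (Fin n) (Fin n) F)
      map_add' := fun a b => by rw [Matrix.mul_add, Matrix.add_mul]
      map_smul' := fun a b => by rw [Matrix.mul_smul, Matrix.smul_mul]; rfl }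
  have hT : ∀ (y : E) (j : E ⧸ Z), T y (v j) = ((c y j.out : Fˣ) : F) • v j := by
    intro y j
    show ((y : GL (Fin n) F) : Matrix (Fin n) (Fin n) F) * ((j.out : E) : GL (Fin n) F) *
      (((y : GL (Fin n) F)⁻¹ : GL (Fin n) F) : Matrix (Fin n) (Fin n) F) = _
    rw [← Units.val_mul, hc1 y j.out, Units.val_mul, Units.val_mul, sc_coe, Matrix.smul_mul, one_mul,
      Matrix.smul_mul, Matrix.mul_assoc, Units.mul_inv, mul_one]
  have hv : ∀ j, v j ≠ 0 := by
    intro j h0
    have := ((j.out : E) : GL (Fin n) F).mul_inv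
    change v j * _ = 1 at this
    rw [h0, zero_mul] at this
    exact zero_ne_one this
  have hinj : Function.Injective (fun (j : E ⧸ Z) (y : E) => ((c y j.out : Fˣ) : F)) := by
    intro i j hij
    have h1 : ∀ y, c y i.out = c y j.out := fun y => Units.ext (congrFun hij y)
    have h2 : ((i.out : E) : GL (Fin n) F)⁻¹ * (j.out : E) ∈ scalars (Fin n) F := by
      apply h.scalar_of_central hn
      intro y hy
      have e1 := hc1 ⟨y, hy⟩ i.out
      have e2 := hc1 ⟨y, hy⟩ j.out
      rw [h1] at e1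
      simp only at e1 e2
      set a := ((i.out : E) : GL (Fin n) F)
      set b := ((j.out : E) : GL (Fin n) F)
      set d := c ⟨y, hy⟩ j.out
      -- y a = d a y, y b = d b y
      have e3 : a⁻¹ * y = sc n F d * (y * a⁻¹) := by
        calc a⁻¹ * y = a⁻¹ * (y * a) * a⁻¹ := by group
          _ = a⁻¹ * (sc n F d * a) * (y * a⁻¹) := by rw [e1]; group
          _ = _ := by rw [sc_comm]; group
      calc a⁻¹ * b * y = a⁻¹ * (b * y) := by group
        _ = a⁻¹ * ((sc n F d)⁻¹ * (y * b)) := by rw [e2]; group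
        _ = (sc n F d)⁻¹ * (a⁻¹ * y) * b := by
            rw [← map_inv, ← mul_assoc, ← sc_comm]; group
        _ = (sc n F d)⁻¹ * (sc n F d * (y * a⁻¹)) * b := by rw [e3]
        _ = y * (a⁻¹ * b) := by group
    have h3 : (QuotientGroup.mk (i.out : E) : E ⧸ Z) = QuotientGroup.mk (j.out : E) := by
      rw [QuotientGroup.eq]
      exact h2
    rwa [QuotientGroup.out_eq', QuotientGroup.out_eq'] at h3
  have hli := indep_of_characters T v _ hv hT hinj
  have hspan : ⊤ ≤ Submodule.span F (Set.range v) := by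
    intro M _
    have h1 : tl n F M ∈ Subalgebra.toSubmodule (Asc.env E) := by rw [h.env]; trivial
    rw [env_eq_span] at h1
    have h2 : M = (tl n F).symm (tl n F M) := ((tl n F).symm_apply_apply M).symm
    rw [h2]
    revert h1
    generalize tl n F M = r
    intro h1
    induction h1 using Submodule.span_induction with
    | mem r hr =>
      obtain ⟨_, ⟨x, hx, rfl⟩, rfl⟩ := hr
      rw [AlgEquiv.symm_apply_apply]
      have h3 : ((QuotientGroup.mk (⟨x, hx⟩ : E) : E ⧸ Z).out : E)⁻¹ * ⟨x, hx⟩ ∈ Z := by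
        rw [← QuotientGroup.eq, QuotientGroup.out_eq']
      obtain ⟨d, hd⟩ := mem_scalars.1 (Subgroup.mem_subgroupOf.1 h3)
      have h4 : x = ((QuotientGroup.mk (⟨x, hx⟩ : E) : E ⧸ Z).out : E) * sc n F d := by
        rw [hd]
        show x = _ * (_⁻¹ * x)
        group
      have h5 : (x : Matrix (Fin n) (Fin n) F) = (d : F) • v (QuotientGroup.mk (⟨x, hx⟩ : E)) := by
        conv_lhs => rw [h4]
        rw [Units.val_mul, sc_coe, Matrix.mul_smul, mul_one]
      show (x : Matrix (Fin n) (Fin n) F) ∈ _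
      rw [h5]
      exact Submodule.smul_mem _ _ (Submodule.subset_span ⟨_, rfl⟩)
    | zero => rw [map_zero]; exact Submodule.zero_mem _
    | add x y _ _ hx hy => rw [map_add]; exact Submodule.add_mem _ hx hy
    | smul c x _ hx => rw [map_smul]; exact Submodule.smul_mem _ _ hx
  let b := Module.Basis.mk hli hspan
  have h1 := Module.finrank_eq_nat_card_basis b
  rw [Module.finrank_matrix, Module.finrank_self, mul_one] at h1
  simp only [Nat.card_eq_fintype_card, Fintype.card_fin] at h1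
  rw [Subgroup.relIndex, Subgroup.index]
  exact h1.symm

end Cfsg.Agent.H29.Asc
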