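import Mathlib
import Cfsg.Agent.H29_AscE

set_option autoImplicit false

/-! groups of symplectic type, continued: the canonical subgroup of small exponent -/

namespace Cfsg.Agent.H29.Asc

open Matrix Module Cfsg.Geo
open scoped commutatorElement

variable {F : Type*} [Field F] {n : ℕ} {r : ℕ} {G E : Subgroup (GL (Fin n) F)}

/-- the exponent `r gcd(2, r)` -/
def ex (r : ℕ) : ℕ := r * Nat.gcd 2 r

theorem ex_odd (hr : r.Prime) (h2 : r ≠ 2) : ex r = r := by
  have : Nat.gcd 2 r = 1 := (Nat.coprime_primes Nat.prime_two hr).2 (Ne.symm h2)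
  rw [ex, this, mul_one]

theorem ex_two : ex 2 = 4 := rfl

theorem ex_pos (hr : r.Prime) : 0 < ex r :=
  Nat.mul_pos hr.pos (Nat.gcd_pos_of_pos_left _ (by norm_num))

theorem dvd_ex : r ∣ ex r := Dvd.intro _ rfl

theorem dvd_choose (hr : r.Prime) : r ∣ ex r * (ex r - 1) / 2 := by
  by_cases h2 : r = 2
  · subst h2; rw [ex_two]; norm_num
  · rw [ex_odd hr h2]
    have hodd := hr.odd_of_ne_two h2
    obtain ⟨k, hk⟩ := hodd
    have : r * (r - 1) / 2 = r * k := by
      rw [hk]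
      have : 2 * k + 1 - 1 = 2 * k := by omega
      rw [this]
      have h3 : (2 * k + 1) * (2 * k) = ((2 * k + 1) * k) * 2 := by ring
      rw [h3, Nat.mul_div_cancel _ (by norm_num)]
    rw [this]
    exact Dvd.intro _ rfl

theorem mul_pow_sc {x y : GL (Fin n) F} {d : Fˣ} (h : y * x = sc n F d * (x * y)) (k : ℕ) :
    (x * y) ^ k = sc n F (d ^ (k * (k - 1) / 2)) * (x ^ k * y ^ k) := by
  have h1 : ∀ k : ℕ, y ^ k * x = sc n F (d ^ k) * (x * y ^ k) := by
    intro k
    induction k with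
    | zero => simp
    | succ k ih =>
      calc y ^ (k + 1) * x = y * (y ^ k * x) := by rw [pow_succ']; group
        _ = y * (sc n F (d ^ k) * (x * y ^ k)) := by rw [ih]
        _ = (y * sc n F (d ^ k)) * (x * y ^ k) := by group
        _ = (sc n F (d ^ k) * y) * (x * y ^ k) := by rw [sc_comm]
        _ = sc n F (d ^ k) * (y * x) * y ^ k := by group
        _ = sc n F (d ^ k) * (sc n F d * (x * y)) * y ^ k := by rw [h]
        _ = (sc n F (d ^ k) * sc n F d) * (x * (y * y ^ k)) := by group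
        _ = _ := by rw [← map_mul, ← pow_succ, ← pow_succ']
  induction k with
  | zero => simp
  | succ k ih =>
    have hk : (k + 1) * (k + 1 - 1) / 2 = k * (k - 1) / 2 + k := by
      have : (k + 1) * (k + 1 - 1) = k * (k - 1) + k * 2 := by
        cases k with
        | zero => rfl
        | succ k => simp only [Nat.add_sub_cancel]; ring
      rw [this, Nat.add_mul_div_right _ _ (by norm_num)]
    calc (x * y) ^ (k + 1) = (x * y) ^ k * (x * y) := pow_succ _ _
      _ = sc n F (d ^ (k * (k - 1) / 2)) * (x ^ k * y ^ k) * (x * y) := by rw [ih]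
      _ = sc n F (d ^ (k * (k - 1) / 2)) * x ^ k * (y ^ k * x) * y := by group
      _ = sc n F (d ^ (k * (k - 1) / 2)) * x ^ k * (sc n F (d ^ k) * (x * y ^ k)) * y := by rw [h1]
      _ = sc n F (d ^ (k * (k - 1) / 2)) * (x ^ k * sc n F (d ^ k)) * (x * y ^ k) * y := by group
      _ = sc n F (d ^ (k * (k - 1) / 2)) * (sc n F (d ^ k) * x ^ k) * (x * y ^ k) * y := by rw [sc_comm (d ^ k)]
      _ = (sc n F (d ^ (k * (k - 1) / 2)) * sc n F (d ^ k)) * ((x ^ k * x) * (y ^ k * y)) := by group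
      _ = _ := by rw [← map_mul, ← pow_add, ← pow_succ, ← pow_succ, hk]

theorem ST.mul_pow_ex (h : ST r G E) (hn : 0 < n) {x y : GL (Fin n) F} (hx : x ∈ E) (hy : y ∈ E) :
    (x * y) ^ (ex r) = x ^ (ex r) * y ^ (ex r) := by
  obtain ⟨d, hd, hdr⟩ := h.exists_comm hn hy hx
  rw [mul_pow_sc hd]
  obtain ⟨k, hk⟩ := dvd_choose h.hr
  rw [hk, pow_mul, hdr, one_pow, map_one, one_mul]

theorem ST.exists_f (h : ST r G E) (hn : 0 < n) : ∃ f : E →* Fˣ, ∀ x : E, sc n F (f x) = (x : GL (Fin n) F) ^ (ex r) := by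
  have h1 : ∀ x : E, ∃ c : Fˣ, sc n F c = (x : GL (Fin n) F) ^ (ex r) := by
    intro x
    have : (x : GL (Fin n) F) ^ (ex r) ∈ scalars (Fin n) F := by
      rw [ex, pow_mul]
      exact Subgroup.pow_mem _ (h.pow x x.2) _
    exact mem_scalars.1 this
  choose f hf using h1
  exact ⟨{ toFun := f
           map_one' := sc_injective hn (by rw [hf, map_one]; simp)
           map_mul' := fun x y => sc_injective hn (by
             rw [hf, map_mul, hf, hf]
             exact h.mul_pow_ex hn x.2 y.2) }, hf⟩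

/-- the dimension is a power of `r` -/
theorem ST.dim (h : ST r G E) [Finite F] (hn : 0 < n) : ∃ m, n = r ^ m := by
  have h1 := h.card_quot hn
  haveI : Fact r.Prime := ⟨h.hr⟩
  haveI : Finite E := Finite.of_injective (fun g : E => (((g : GL (Fin n) F) : Matrix (Fin n) (Fin n) F)))
    (fun a b h => Subtype.ext (Units.ext h))
  have h2 : IsPGroup r (E ⧸ (scalars (Fin n) F).subgroupOf E) := by
    intro q
    obtain ⟨x, rfl⟩ := QuotientGroup.mk_surjective q
    refine ⟨1, ?_⟩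
    rw [pow_one, ← QuotientGroup.mk_pow, QuotientGroup.eq_one_iff]
    exact h.pow x x.2
  obtain ⟨k, hk⟩ := (IsPGroup.iff_card).1 h2
  have h3 : n * n = r ^ k := by
    rw [← h1, Subgroup.relIndex, Subgroup.index, hk]
  obtain ⟨m, -, hm⟩ := (Nat.dvd_prime_pow h.hr).1 (Dvd.intro _ h3 : n ∣ r ^ k)
  exact ⟨m, hm⟩

theorem ST.ex_lt (h : ST r G E) [Finite F] (hn : 3 ≤ n) : ex r < n * n := by
  obtain ⟨m, hm⟩ := h.dim (by omega)
  have hm1 : 1 ≤ m := by
    rcases Nat.eq_zero_or_pos m with h0 | h0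
    · subst h0; simp at hm; omega
    · exact h0
  by_cases h2 : r = 2
  · subst h2; rw [ex_two]; nlinarith
  · rw [ex_odd h.hr h2]
    have : r ≤ n := by
      rw [hm]; exact Nat.le_self_pow (by omega) r
    nlinarith [h.hr.two_le]

/-- every element can be scaled to have order dividing `r gcd(2, r)` -/
theorem ST.scale (h : ST r G E) [Finite F] (hn : 3 ≤ n) {x : GL (Fin n) F} (hx : x ∈ E) :
    ∃ c : Fˣ, (sc n F c * x) ^ (ex r) = 1 := by
  obtain ⟨f, hf⟩ := h.exists_f (by omega)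
  let M' : Subgroup E := (powMonoidHom (ex r) : Fˣ →* Fˣ).range.comap f
  have hsc : ∀ c : Fˣ, sc n F c ∈ E := fun c => h.Zle (sc_mem c)
  rcases h.min (M'.map E.subtype) (by
      rintro _ ⟨c, rfl⟩
      refine ⟨⟨sc n F c, hsc c⟩, ?_, rfl⟩
      refine ⟨c, ?_⟩
      apply sc_injective (n := n) (by omega)
      rw [hf]
      show sc n F (c ^ ex r) = (sc n F c) ^ ex r
      rw [map_pow]) (Subgroup.map_subtype_le _) (by
      rintro g hg _ ⟨x, hx, rfl⟩
      refine ⟨⟨g * x * g⁻¹, h.norm g hg x x.2⟩, ?_, rfl⟩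
      have : f ⟨g * x * g⁻¹, h.norm g hg x x.2⟩ = f x := by
        apply sc_injective (n := n) (by omega)
        rw [hf, hf]
        show (g * (x : GL (Fin n) F) * g⁻¹) ^ ex r = _
        rw [conj_pow, ← hf, ← sc_comm, mul_inv_cancel_right]
      show f _ ∈ (powMonoidHom (ex r) : Fˣ →* Fˣ).range
      rw [this]
      exact hx) with h1 | h1
  · exfalso
    have h2 : M' ≤ (scalars (Fin n) F).subgroupOf E := by
      intro y hy
      exact h1 ⟨y, hy, rfl⟩
    haveI : Finite E := Finite.of_injective (fun g : E => (((g : GL (Fin n) F) : Matrix (Fin n) (Fin n) F)))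
      (fun a b h => Subtype.ext (Units.ext h))
    have h3 : ((scalars (Fin n) F).subgroupOf E).index ≤ M'.index :=
      Nat.le_of_dvd (Nat.pos_of_ne_zero (Subgroup.index_ne_zero_of_finite)) (Subgroup.index_dvd_of_le h2)
    have h4 : M'.index ≤ ex r := by
      have e1 : M'.index = (powMonoidHom (ex r) : Fˣ →* Fˣ).range.relIndex f.range := Subgroup.index_comap _ f
      have e2 : (powMonoidHom (ex r) : Fˣ →* Fˣ).range.relIndex f.range ∣
          (powMonoidHom (ex r) : Fˣ →* Fˣ).range.index := Subgroup.relIndex_dvd_index_of_normal _ _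
      have e3 : (powMonoidHom (ex r) : Fˣ →* Fˣ).range.index = (Nat.card Fˣ).gcd (ex r) :=
        IsCyclic.index_powMonoidHom_range Fˣ _
      rw [e1]
      refine (Nat.le_of_dvd (Nat.pos_of_ne_zero (Subgroup.index_ne_zero_of_finite)) e2).trans ?_
      rw [e3]
      exact Nat.gcd_le_right _ (ex_pos h.hr)
    have h5 := h.card_quot (by omega)
    have h6 := h.ex_lt hn
    rw [Subgroup.relIndex] at h5
    omega
  · obtain ⟨y, ⟨c, hc⟩, hyx⟩ := h1 hx
    have hyx' : (y : GL (Fin n) F) = x := hyx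
    refine ⟨c⁻¹, ?_⟩
    rw [(show Commute (sc n F c⁻¹) x from sc_comm _ _).mul_pow, ← hyx', ← hf, ← hc, ← map_pow, ← map_mul]
    show sc n F (c⁻¹ ^ ex r * c ^ ex r) = 1
    rw [inv_pow, inv_mul_cancel, map_one]

/-- the canonical subgroup -/
theorem ST.exists_R (h : ST r G E) (hn : 0 < n) : ∃ R : Subgroup (GL (Fin n) F), ∀ x, x ∈ R ↔ x ∈ E ∧ x ^ (ex r) = 1 := by
  obtain ⟨f, hf⟩ := h.exists_f hn
  refine ⟨f.ker.map E.subtype, fun x => ?_⟩
  constructor
  · rintro ⟨y, hy, rfl⟩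
    refine ⟨y.2, ?_⟩
    have : f y = 1 := hy
    show (y : GL (Fin n) F) ^ ex r = 1
    rw [← hf, this, map_one]
  · rintro ⟨h1, h2⟩
    refine ⟨⟨x, h1⟩, ?_, rfl⟩
    show f _ = 1
    apply sc_injective hn
    rw [hf, map_one]
    exact h2

/-- the structure of the canonical subgroup -/
structure SR (r : ℕ) (G E R : Subgroup (GL (Fin n) F)) : Prop extends ST r G E where
  mem : ∀ x, x ∈ R ↔ x ∈ E ∧ x ^ (ex r) = 1
  scale' : ∀ x ∈ E, ∃ c : Fˣ, sc n F c * x ∈ R

theorem ST.exists_SR (h : ST r G E) [Finite F] (hn : 3 ≤ n) : ∃ R, SR r G E R := by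
  obtain ⟨R, hR⟩ := h.exists_R (by omega)
  refine ⟨R, h, hR, fun x hx => ?_⟩
  obtain ⟨c, hc⟩ := h.scale hn hx
  exact ⟨c, (hR _).2 ⟨E.mul_mem (h.Zle (sc_mem c)) hx, hc⟩⟩

variable {R : Subgroup (GL (Fin n) F)}

theorem SR.le (h : SR r G E R) : R ≤ E := fun x hx => ((h.mem x).1 hx).1

theorem SR.normR (h : SR r G E R) {g : GL (Fin n) F} (hg : g ∈ G) {x : GL (Fin n) F} (hx : x ∈ R) :
    g * x * g⁻¹ ∈ R := by
  rw [h.mem] at hx ⊢
  refine ⟨h.norm g hg x hx.1, ?_⟩
  rw [conj_pow, hx.2, mul_one, mul_inv_cancel]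

theorem SR.envR (h : SR r G E R) : Asc.env R = ⊤ := by
  rw [eq_top_iff, ← h.env]
  apply Algebra.adjoin_le
  rintro _ ⟨_, ⟨x, hx, rfl⟩, rfl⟩
  obtain ⟨c, hc⟩ := h.scale' x hx
  have h1 := mem_env hc
  rw [Units.val_mul, sc_coe, Matrix.smul_mul, one_mul, map_smul] at h1
  have h2 := Subalgebra.smul_mem _ h1 ((c⁻¹ : Fˣ) : F)
  rw [smul_smul, Units.inv_mul, one_smul] at h2
  exact h2

theorem SR.central_iff (h : SR r G E R) (hn : 0 < n) {x : GL (Fin n) F} :
    (∀ y ∈ R, x * y = y * x) ↔ x ∈ scalars (Fin n) F := by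
  constructor
  · exact scalar_of_commute hn h.envR
  · intro hx y _
    exact scalars_comm' hx y
where
  scalars_comm' {z : GL (Fin n) F} (hz : z ∈ scalars (Fin n) F) (g : GL (Fin n) F) : z * g = g * z := by
    obtain ⟨c, rfl⟩ := hz
    exact sc_comm c g

/-- the index of the scalars in `R` -/
theorem SR.relIndex (h : SR r G E R) [Finite F] (hn : 0 < n) : (scalars (Fin n) F).relIndex R = n * n := by
  rw [← h.card_quot hn, ← Subgroup.relIndex_sup_right]
  congr 1
  apply le_antisymm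
  · exact sup_le h.le h.Zle
  · intro x hx
    obtain ⟨c, hc⟩ := h.scale' x hx
    have : x = (sc n F c * x) * (sc n F c)⁻¹ := by
      rw [sc_comm, mul_inv_cancel_right]
    rw [this]
    exact Subgroup.mul_mem _ (Subgroup.mem_sup_left hc)
      (Subgroup.mem_sup_right (Subgroup.inv_mem _ (sc_mem c)))

end Cfsg.Agent.H29.Asc
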