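import Mathlib
import Cfsg.Agent.H29_AscE2

set_option autoImplicit false

/-! monomial representations -/

namespace Cfsg.Agent.H29.Asc

open Matrix Module Cfsg.Geo Cfsg.Agent.H29.AscF
open scoped commutatorElement

variable {F : Type*} [Field F] {n : ℕ}

theorem aeval_comm {V : Type*} [AddCommGroup V] [Module F V] {a x : Module.End F V} (h : x * a = a * x)
    (p : Polynomial F) : x * Polynomial.aeval a p = Polynomial.aeval a p * x := by
  induction p using Polynomial.induction_on' with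
  | add p q hp hq => rw [map_add, mul_add, add_mul, hp, hq]
  | monomial k c =>
    rw [Polynomial.aeval_monomial]
    have h1 : x * a ^ k = a ^ k * x := (show Commute x a from h).pow_right k
    rw [← mul_assoc, ← Algebra.commutes c x, mul_assoc, h1, ← mul_assoc]

theorem exists_eig {V : Type*} [AddCommGroup V] [Module F V] (a : Module.End F V) (S : Finset F) :
    ∀ v : V, v ≠ 0 → Polynomial.aeval a (∏ ζ ∈ S, (Polynomial.X - Polynomial.C ζ)) v = 0 →
      ∃ p : Polynomial F, Polynomial.aeval a p v ≠ 0 ∧ ∃ ζ ∈ S,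
        a (Polynomial.aeval a p v) = ζ • Polynomial.aeval a p v := by
  classical
  induction S using Finset.induction_on with
  | empty =>
    intro v hv h
    simp at h
    exact absurd h hv
  | insert ζ S hζ ih =>
    intro v hv h
    by_cases h0 : Polynomial.aeval a (∏ ζ ∈ S, (Polynomial.X - Polynomial.C ζ)) v = 0
    · obtain ⟨p, hp, ξ, hξ, he⟩ := ih v hv h0
      exact ⟨p, hp, ξ, Finset.mem_insert_of_mem hξ, he⟩
    · refine ⟨_, h0, ζ, Finset.mem_insert_self _ _, ?_⟩
      rw [Finset.prod_insert hζ, map_mul, Module.End.mul_apply, map_sub, Polynomial.aeval_X,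
        Polynomial.aeval_C, LinearMap.sub_apply, Module.algebraMap_end_apply, sub_eq_zero] at h
      exact h

theorem common_eigenvector [Finite F] (hn : 0 < n) {s : ℕ} (hs : 0 < s) {ζ : F} (hζ : IsPrimitiveRoot ζ s)
    (A : Subgroup (GL (Fin n) F)) (hab : ∀ x ∈ A, ∀ y ∈ A, x * y = y * x) (hA : ∀ x ∈ A, x ^ s = 1) :
    ∃ v : Fin n → F, v ≠ 0 ∧ ∀ x ∈ A, ∃ c : F, (x : Matrix (Fin n) (Fin n) F) *ᵥ v = c • v ∧ c ^ s = 1 := by
  classical
  haveI : Nonempty (Fin n) := ⟨⟨0, hn⟩⟩
  haveI : Nontrivial (Fin n → F) := inferInstance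
  have hfin : (A : Set (GL (Fin n) F)).Finite := by
    haveI : Finite (GL (Fin n) F) := Finite.of_injective
      (fun g : GL (Fin n) F => ((g : Matrix (Fin n) (Fin n) F))) (fun a b h => Units.ext h)
    exact Set.toFinite _
  have key : ∀ T : Finset (GL (Fin n) F), (∀ x ∈ T, x ∈ A) → ∃ v : Fin n → F, v ≠ 0 ∧
      ∀ x ∈ T, ∃ c : F, tl n F (x : Matrix (Fin n) (Fin n) F) v = c • v := by
    intro T
    induction T using Finset.induction_on with
    | empty =>
      intro _
      obtain ⟨v, hv⟩ := exists_ne (0 : Fin n → F)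
      exact ⟨v, hv, by simp⟩
    | insert a T ha ih =>
      intro hT
      obtain ⟨v, hv, h⟩ := ih (fun x hx => hT x (Finset.mem_insert_of_mem hx))
      have haA : a ∈ A := hT a (Finset.mem_insert_self _ _)
      set a' := tl n F (a : Matrix (Fin n) (Fin n) F) with ha'
      have h1 : Polynomial.aeval a' (∏ ζ ∈ Polynomial.nthRootsFinset s (1 : F), (Polynomial.X - Polynomial.C ζ)) v = 0 := by
        rw [← Polynomial.X_pow_sub_one_eq_prod hs hζ, map_sub, map_pow, Polynomial.aeval_X, map_one]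
        have : a' ^ s = 1 := by
          rw [ha', ← map_pow, ← Units.val_pow_eq_pow_val, hA a haA, Units.val_one, map_one]
        rw [this, sub_self, LinearMap.zero_apply]
      obtain ⟨p, hp, ξ, -, he⟩ := exists_eig a' _ v hv h1
      refine ⟨Polynomial.aeval a' p v, hp, ?_⟩
      intro x hx
      rcases Finset.mem_insert.1 hx with rfl | hxT
      · exact ⟨ξ, he⟩
      · obtain ⟨c, hc⟩ := h x hxT
        refine ⟨c, ?_⟩
        have hcm : tl n F (x : Matrix (Fin n) (Fin n) F) * a' = a' * tl n F (x : Matrix (Fin n) (Fin n) F) := by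
          rw [ha', ← map_mul, ← map_mul, ← Units.val_mul, ← Units.val_mul,
            hab x (hT x (Finset.mem_insert_of_mem hxT)) a haA]
        have := LinearMap.congr_fun (aeval_comm hcm p) v
        rw [Module.End.mul_apply, Module.End.mul_apply, hc, map_smul] at this
        exact this
  obtain ⟨v, hv, h⟩ := key hfin.toFinset (fun x hx => by simpa using hx)
  refine ⟨v, hv, fun x hx => ?_⟩
  obtain ⟨c, hc⟩ := h x (by simpa using hx)
  refine ⟨c, hc, ?_⟩
  have h2 : ∀ k : ℕ, tl n F ((x ^ k : GL (Fin n) F) : Matrix (Fin n) (Fin n) F) v = c ^ k • v := by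
    intro k
    induction k with
    | zero => rw [pow_zero, Units.val_one, map_one]; simp
    | succ k ih =>
      rw [pow_succ, Units.val_mul, map_mul, Module.End.mul_apply, hc, map_smul, ih, smul_smul, pow_succ']
  have h3 := h2 s
  rw [hA x hx, Units.val_one, map_one, Module.End.one_apply] at h3
  have h4 : (c ^ s - 1) • v = 0 := by rw [sub_smul, one_smul, ← h3, sub_self]
  exact sub_eq_zero.1 ((smul_eq_zero.1 h4).resolve_right hv)

/-- maximal abelian subgroups are self-centralising -/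
theorem exists_max_abelian {Γ : Type*} [Group Γ] [Finite Γ] (R : Subgroup Γ) :
    ∃ A : Subgroup Γ, A ≤ R ∧ (∀ x ∈ A, ∀ y ∈ A, x * y = y * x) ∧
      ∀ x ∈ R, (∀ y ∈ A, x * y = y * x) → x ∈ A := by
  let S : Set (Subgroup Γ) := {A | A ≤ R ∧ ∀ x ∈ A, ∀ y ∈ A, x * y = y * x}
  have hS : S.Nonempty := ⟨⊥, bot_le, by
    intro x hx y hy
    rw [Subgroup.mem_bot] at hx hy
    rw [hx, hy]⟩
  obtain ⟨A, hA⟩ := (Set.toFinite S).exists_maximal hS
  refine ⟨A, hA.1.1, hA.1.2, fun x hx hc => ?_⟩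
  have hAc : A ≤ Subgroup.centralizer (A : Set Γ) := by
    intro a ha
    rw [Subgroup.mem_centralizer_iff]
    intro b hb
    exact hA.1.2 b hb a ha
  have hxc : Subgroup.zpowers x ≤ Subgroup.centralizer (A : Set Γ) := by
    rw [Subgroup.zpowers_le, Subgroup.mem_centralizer_iff]
    intro b hb
    exact (hc b hb).symm
  set A' := A ⊔ Subgroup.zpowers x with hA'
  have h1 : A' ≤ Subgroup.centralizer (A : Set Γ) := sup_le hAc hxc
  have h2 : A ≤ Subgroup.centralizer (A' : Set Γ) := Subgroup.le_centralizer_iff.1 h1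
  have h3 : A ≤ Subgroup.centralizer ((Subgroup.zpowers x : Subgroup Γ) : Set Γ) := Subgroup.le_centralizer_iff.1 hxc
  have h4 : Subgroup.zpowers x ≤ Subgroup.centralizer ((Subgroup.zpowers x : Subgroup Γ) : Set Γ) := by
    rw [Subgroup.zpowers_le, Subgroup.mem_centralizer_iff]
    rintro _ ⟨k, rfl⟩
    exact ((Commute.refl x).zpow_left k).eq
  have h5 : A' ≤ Subgroup.centralizer ((Subgroup.zpowers x : Subgroup Γ) : Set Γ) := sup_le h3 h4
  have h6 : Subgroup.zpowers x ≤ Subgroup.centralizer (A' : Set Γ) := Subgroup.le_centralizer_iff.1 h5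
  have h7 : A' ≤ Subgroup.centralizer (A' : Set Γ) := sup_le h2 h6
  have hA'S : A' ∈ S := by
    refine ⟨sup_le hA.1.1 (by rw [Subgroup.zpowers_le]; exact hx), fun a ha b hb => ?_⟩
    exact (Subgroup.mem_centralizer_iff.1 (h7 hb)) a ha
  exact hA.2 hA'S le_sup_left (Subgroup.mem_sup_right (Subgroup.mem_zpowers x))

/-- the monomial basis -/
theorem monomial_basis [Finite F] (hn : 0 < n) {s : ℕ} (hs : 0 < s) {ζ : F} (hζ : IsPrimitiveRoot ζ s)
    (R : Subgroup (GL (Fin n) F)) (henv : env R = ⊤)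
    (hcomm : ∀ x ∈ R, ∀ y ∈ R, ⁅x, y⁆ ∈ scalars (Fin n) F) (hpow : ∀ x ∈ R, x ^ s = 1) :
    ∃ B : GL (Fin n) F, ∀ x ∈ R, ∃ (π : Equiv.Perm (Fin n)) (d : Fin n → F), (∀ i, d i ^ s = 1) ∧
      ∀ i j, ((B⁻¹ * x * B : GL (Fin n) F) : Matrix (Fin n) (Fin n) F) i j = if i = π j then d j else 0 := by
  classical
  haveI : Nonempty (Fin n) := ⟨⟨0, hn⟩⟩
  haveI : Nontrivial (Fin n → F) := inferInstance
  haveI : Finite (GL (Fin n) F) := Finite.of_injective
      (fun g : GL (Fin n) F => ((g : Matrix (Fin n) (Fin n) F))) (fun a b h => Units.ext h)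
  obtain ⟨A, hAR, hAc, hAmax⟩ := exists_max_abelian R
  obtain ⟨v, hv, hvA⟩ := common_eigenvector hn hs hζ A hAc (fun x hx => hpow x (hAR hx))
  choose! lam hlam1 hlam2 using hvA
  let J := R ⧸ (A.subgroupOf R)
  let b : J → (Fin n → F) := fun j => (((j.out : R) : GL (Fin n) F) : Matrix (Fin n) (Fin n) F) *ᵥ v
  -- commutators
  have hc0 : ∀ x ∈ R, ∀ y ∈ R, ∃ c : Fˣ, x * y = sc n F c * (y * x) := by
    intro x hx y hy
    obtain ⟨c, hc⟩ := mem_scalars.1 (hcomm x hx y hy)
    exact ⟨c, by rw [hc, commutatorElement_def]; group⟩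
  choose! c hc using hc0
  let T : A → Module.End F (Fin n → F) := fun a => tl n F ((a : GL (Fin n) F) : Matrix (Fin n) (Fin n) F)
  have hb0 : ∀ j, b j ≠ 0 := by
    intro j h0
    apply hv
    have h1 := congrArg (fun w => ((((j.out : R) : GL (Fin n) F)⁻¹ : GL (Fin n) F) : Matrix (Fin n) (Fin n) F) *ᵥ w) h0
    simp only [b, Matrix.mulVec_mulVec, Matrix.mulVec_zero] at h1
    rw [← Units.val_mul, inv_mul_cancel, Units.val_one, Matrix.one_mulVec] at h1
    exact h1
  have hT : ∀ (a : A) (j : J), T a (b j) = (((c a (j.out : R) : Fˣ) : F) * lam a) • b j := by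
    intro a j
    have h1 := hc a (hAR a.2) (j.out : R) (j.out : R).2
    show ((a : GL (Fin n) F) : Matrix (Fin n) (Fin n) F) *ᵥ ((((j.out : R) : GL (Fin n) F) : Matrix (Fin n) (Fin n) F) *ᵥ v) = _
    rw [Matrix.mulVec_mulVec, ← Units.val_mul, h1, Units.val_mul, Units.val_mul, sc_coe, Matrix.smul_mul,
      one_mul, Matrix.smul_mulVec, ← Matrix.mulVec_mulVec, hlam1 a a.2, Matrix.mulVec_smul, smul_smul]
  have hlam0 : ∀ a ∈ A, lam a ≠ 0 := by
    intro a ha h0
    have := hlam2 a ha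
    rw [h0, zero_pow hs.ne'] at this
    exact zero_ne_one this
  have hinj : Function.Injective (fun (j : J) (a : A) => ((c a (j.out : R) : Fˣ) : F) * lam a) := by
    intro i j hij
    have h1 : ∀ a : A, c a (i.out : R) = c a (j.out : R) := fun a =>
      Units.ext (mul_right_cancel₀ (hlam0 a a.2) (congrFun hij a))
    have h2 : ((i.out : R) : GL (Fin n) F)⁻¹ * (j.out : R) ∈ A := by
      apply hAmax
      · exact R.mul_mem (R.inv_mem (i.out : R).2) (j.out : R).2
      intro y hy
      have e1 := hc y (hAR hy) (i.out : R) (i.out : R).2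
      have e2 := hc y (hAR hy) (j.out : R) (j.out : R).2
      have h1' := h1 ⟨y, hy⟩
      simp only at h1'
      rw [h1'] at e1
      set a := ((i.out : R) : GL (Fin n) F)
      set b := ((j.out : R) : GL (Fin n) F)
      set d := c y b
      have e3 : a⁻¹ * y = sc n F d * (y * a⁻¹) := by
        calc a⁻¹ * y = a⁻¹ * (y * a) * a⁻¹ := by group
          _ = a⁻¹ * (sc n F d * a) * (y * a⁻¹) := by rw [e1]; group
          _ = _ := by rw [sc_comm]; group
      calc a⁻¹ * b * y = a⁻¹ * (b * y) := by group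
        _ = a⁻¹ * ((sc n F d)⁻¹ * (y * b)) := by rw [e2]; group
        _ = (sc n F d)⁻¹ * (a⁻¹ * y) * b := by
            rw [← map_inv, ← mul_assoc, ← sc_comm]; group
        _ = (sc n F d)⁻¹ * (sc n F d * (y * a⁻¹)) * b := by rw [e3]
        _ = y * (a⁻¹ * b) := by group
    have h3 : (QuotientGroup.mk (i.out : R) : J) = QuotientGroup.mk (j.out : R) := by
      rw [QuotientGroup.eq]
      exact h2
    rwa [QuotientGroup.out_eq', QuotientGroup.out_eq'] at h3
  have hli := indep_of_characters T b _ hb0 hT hinj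
  -- action of R on the vectors
  have hact : ∀ (x : R) (j : J), ∃ d : F, d ^ s = 1 ∧
      ((x : GL (Fin n) F) : Matrix (Fin n) (Fin n) F) *ᵥ b j = d • b (x • j) := by
    intro x j
    have h3 : ((x • j : J).out : R)⁻¹ * (x * j.out) ∈ A.subgroupOf R := by
      rw [← QuotientGroup.eq, QuotientGroup.out_eq']
      conv_lhs => rw [← QuotientGroup.out_eq' j]
      rfl
    have h3' : (((x • j : J).out : R) : GL (Fin n) F)⁻¹ * ((x : GL (Fin n) F) * (j.out : R)) ∈ A := h3
    refine ⟨lam _, hlam2 _ h3', ?_⟩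
    show ((x : GL (Fin n) F) : Matrix (Fin n) (Fin n) F) *ᵥ ((((j.out : R) : GL (Fin n) F) : Matrix (Fin n) (Fin n) F) *ᵥ v) = _
    rw [Matrix.mulVec_mulVec, ← Units.val_mul]
    have h4 : (x : GL (Fin n) F) * (j.out : R) = (((x • j : J).out : R) : GL (Fin n) F) *
        ((((x • j : J).out : R) : GL (Fin n) F)⁻¹ * ((x : GL (Fin n) F) * (j.out : R))) := by group
    rw [h4, Units.val_mul, ← Matrix.mulVec_mulVec, ← h4, hlam1 _ h3', Matrix.mulVec_smul]
  have hspan : ⊤ ≤ Submodule.span F (Set.range b) := by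
    have h1 := (absIrr_of_env_top henv).1 (Submodule.span F (Set.range b)) (by
      rintro _ ⟨x, hx, rfl⟩
      rw [Submodule.map_span_le]
      rintro _ ⟨j, rfl⟩
      obtain ⟨d, -, hd⟩ := hact ⟨x, hx⟩ j
      show (x : Matrix (Fin n) (Fin n) F) *ᵥ b j ∈ _
      rw [hd]
      exact Submodule.smul_mem _ _ (Submodule.subset_span ⟨_, rfl⟩))
    rcases h1 with h1 | h1
    · exfalso
      have h2 : b (QuotientGroup.mk 1) ∈ Submodule.span F (Set.range b) := Submodule.subset_span ⟨_, rfl⟩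
      rw [h1, Submodule.mem_bot] at h2
      exact hb0 _ h2
    · rw [h1]
  haveI : Fintype J := Fintype.ofFinite J
  let bb := Module.Basis.mk hli hspan
  have hbb : ∀ j, bb j = b j := fun j => Module.Basis.mk_apply _ _ j
  have hcard : Fintype.card J = Fintype.card (Fin n) := by
    rw [card_eq_of_basis bb, Fintype.card_fin]
  let e : Fin n ≃ J := (Fintype.equivOfCardEq hcard).symm
  obtain ⟨B, hB⟩ := exists_GL_basis bb e
  refine ⟨B, fun x hx => ?_⟩
  choose d hd1 hd2 using hact
  let π : Equiv.Perm (Fin n) := (e.trans (MulAction.toPerm (⟨x, hx⟩ : R))).trans e.symm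
  refine ⟨π, fun i => d ⟨x, hx⟩ (e i), fun i => hd1 _ _, fun i j => ?_⟩
  have h1 : ((B⁻¹ * x * B : GL (Fin n) F) : Matrix (Fin n) (Fin n) F) *ᵥ (Pi.single j 1) =
      d ⟨x, hx⟩ (e j) • Pi.single (π j) 1 := by
    have h2 : (x : Matrix (Fin n) (Fin n) F) *ᵥ ((B : Matrix (Fin n) (Fin n) F) *ᵥ Pi.single j 1) =
        d ⟨x, hx⟩ (e j) • ((B : Matrix (Fin n) (Fin n) F) *ᵥ Pi.single (π j) 1) := by
      rw [hB, hB, hbb, hbb, hd2 ⟨x, hx⟩ (e j)]
      congr 2
      show _ = e (e.symm _)
      rw [Equiv.apply_symm_apply]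
      rfl
    rw [Units.val_mul, Units.val_mul, ← Matrix.mulVec_mulVec, ← Matrix.mulVec_mulVec, h2, Matrix.mulVec_smul,
      Matrix.mulVec_mulVec, ← Units.val_mul, inv_mul_cancel, Units.val_one, Matrix.one_mulVec]
  have h3 := congrFun h1 i
  rw [Matrix.mulVec_single_one] at h3
  simp only [Matrix.col_apply, Pi.smul_apply, Pi.single_apply, smul_eq_mul, mul_ite, mul_one, mul_zero] at h3
  exact h3

end Cfsg.Agent.H29.Asc
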