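import Mathlib
import Cfsg.Agent.H29_AscE3

set_option autoImplicit false

/-! invariant forms of groups of symplectic type -/

namespace Cfsg.Agent.H29.Asc

open Matrix Module Cfsg.Geo Cfsg.Agent.H29.AscF
open scoped commutatorElement

variable {F : Type*} [Field F] {n : ℕ}

theorem real_of_monomial {s : ℕ} (R : Subgroup (GL (Fin n) F)) {B : GL (Fin n) F}
    (hB : ∀ x ∈ R, ∃ (π : Equiv.Perm (Fin n)) (d : Fin n → F), (∀ i, d i ^ s = 1) ∧
      ∀ i j, ((B⁻¹ * x * B : GL (Fin n) F) : Matrix (Fin n) (Fin n) F) i j = if i = π j then d j else 0)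
    (F₀ : Subfield F) (h : ∀ d : F, d ^ s = 1 → d ∈ F₀) : RealisableOver F₀ (matrixSet R) := by
  refine ⟨B⁻¹, ?_⟩
  rintro _ ⟨x, hx, rfl⟩ i j
  obtain ⟨π, d, hd, hij⟩ := hB x hx
  rw [inv_inv]
  have := hij i j
  rw [Units.val_mul, Units.val_mul] at this
  show ((((B⁻¹ : GL (Fin n) F) : Matrix (Fin n) (Fin n) F) * (x : Matrix (Fin n) (Fin n) F) *
    (B : Matrix (Fin n) (Fin n) F)) i j) ∈ F₀
  rw [this]
  split_ifs
  · exact h _ (hd j)
  · exact F₀.zero_mem

theorem unitary_of_monomial {s : ℕ} (hn : 0 < n) (R : Subgroup (GL (Fin n) F)) {B : GL (Fin n) F}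
    (hB : ∀ x ∈ R, ∃ (π : Equiv.Perm (Fin n)) (d : Fin n → F), (∀ i, d i ^ s = 1) ∧
      ∀ i j, ((B⁻¹ * x * B : GL (Fin n) F) : Matrix (Fin n) (Fin n) F) i j = if i = π j then d j else 0)
    (σ : F ≃+* F) (hσ : σ ≠ RingEquiv.refl F) (hinv : ∀ a, σ (σ a) = a)
    (h : ∀ d : F, d ^ s = 1 → d * σ d = 1) :
    ∃ f : (Fin n → F) → (Fin n → F) → F, IsUnitaryForm σ f ∧ FixesForm (matrixSet R) f := by
  classical
  set b : Matrix (Fin n) (Fin n) F := ((B⁻¹ : GL (Fin n) F) : Matrix (Fin n) (Fin n) F) with hb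
  set M : Matrix (Fin n) (Fin n) F := bᵀ * b.map (σ : F →+* F) with hM
  have hbdet : b.det ≠ 0 := ((Matrix.isUnit_iff_isUnit_det _).1 (B⁻¹).isUnit).ne_zero
  have hdet : M.det ≠ 0 := by
    rw [hM, Matrix.det_mul, Matrix.det_transpose]
    apply mul_ne_zero hbdet
    have : (b.map (σ : F →+* F)).det = σ b.det := by
      rw [← RingHom.mapMatrix_apply, ← RingHom.map_det]; rfl
    rw [this]
    exact (map_ne_zero σ).2 hbdet
  have hone : ∀ u v : Fin n → F, sf (σ : F →+* F) M u v = (b *ᵥ u) ⬝ᵥ ((σ : F →+* F) ∘ (b *ᵥ v)) := by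
    intro u v
    have h1 : M = bᵀ * 1 * b.map (σ : F →+* F) := by rw [mul_one]
    rw [h1, ← sf_mulVec]
    unfold sf
    rw [Matrix.one_mulVec]
  refine ⟨sf (σ : F →+* F) M, ⟨hσ, hinv, sf_add_left _ _, sf_smul_left _ _, ?_, nondeg_of_det hdet⟩, ?_⟩
  · intro v w
    rw [hone, hone, dotProduct, dotProduct, map_sum]
    apply Finset.sum_congr rfl
    intro i _
    rw [map_mul]
    show (b *ᵥ v) i * σ ((b *ᵥ w) i) = σ ((b *ᵥ w) i) * σ (σ ((b *ᵥ v) i))
    rw [hinv, mul_comm]
  · rintro _ ⟨x, hx, rfl⟩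
    apply (fixes_iff _ _ _).2
    obtain ⟨π, d, hd, hij⟩ := hB x hx
    set D : Matrix (Fin n) (Fin n) F := ((B⁻¹ * x * B : GL (Fin n) F) : Matrix (Fin n) (Fin n) F) with hD
    have hbx : b * (x : Matrix (Fin n) (Fin n) F) = D * b := by
      rw [hD, hb, ← Units.val_mul, ← Units.val_mul, mul_inv_cancel_right]
    have hDD : Dᵀ * D.map (σ : F →+* F) = 1 := by
      ext j k
      rw [Matrix.mul_apply]
      simp only [Matrix.transpose_apply, Matrix.map_apply, hij]
      rw [Finset.sum_eq_single (π j)]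
      · rw [if_pos rfl]
        by_cases hjk : j = k
        · subst hjk
          rw [if_pos rfl, Matrix.one_apply_eq]
          exact h _ (hd j)
        · rw [if_neg (fun h => hjk (π.injective h)), map_zero, mul_zero, Matrix.one_apply_ne hjk]
      · intro i _ hi
        rw [if_neg hi, zero_mul]
      · simp
    have hmap : ∀ X Y : Matrix (Fin n) (Fin n) F, (X * Y).map (σ : F →+* F) = X.map (σ : F →+* F) * Y.map (σ : F →+* F) :=
      fun X Y => Matrix.map_mul
    calc (x : Matrix (Fin n) (Fin n) F)ᵀ * M * (x : Matrix (Fin n) (Fin n) F).map (σ : F →+* F)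
        = (b * (x : Matrix (Fin n) (Fin n) F))ᵀ * (b * (x : Matrix (Fin n) (Fin n) F)).map (σ : F →+* F) := by
          rw [hM, Matrix.transpose_mul, hmap]; simp only [mul_assoc]
      _ = bᵀ * (Dᵀ * D.map (σ : F →+* F)) * b.map (σ : F →+* F) := by
          rw [hbx, Matrix.transpose_mul, hmap]; simp only [mul_assoc]
      _ = M := by rw [hDD, mul_one]

variable {r : ℕ} {G E R : Subgroup (GL (Fin n) F)}

/-- non-scalar elements have trace zero -/
theorem ST.trace_zero (h : ST r G E) (hn : 0 < n) {x : GL (Fin n) F} (hx : x ∈ E) (hxs : x ∉ scalars (Fin n) F) :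
    (x : Matrix (Fin n) (Fin n) F).trace = 0 := by
  by_contra hne
  apply hxs
  apply h.scalar_of_central hn
  intro y hy
  obtain ⟨c, hc, -⟩ := h.exists_comm hn hx hy
  have h1 : (x : Matrix (Fin n) (Fin n) F) = (c : F) • ((y : Matrix (Fin n) (Fin n) F) * (x : Matrix (Fin n) (Fin n) F) *
      ((y⁻¹ : GL (Fin n) F) : Matrix (Fin n) (Fin n) F)) := by
    have h2 : x = sc n F c * (y * x * y⁻¹) := by rw [← mul_assoc, ← hc, mul_inv_cancel_right]
    conv_lhs => rw [h2]
    rw [Units.val_mul, sc_coe, Matrix.smul_mul, one_mul, Units.val_mul, Units.val_mul]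
  have h2 := congrArg Matrix.trace h1
  rw [Matrix.trace_smul, Matrix.trace_mul_comm, ← mul_assoc, ← Units.val_mul, inv_mul_cancel, Units.val_one,
    one_mul] at h2
  have h3 : (c : F) = 1 := by
    have : ((c : F) - 1) * (x : Matrix (Fin n) (Fin n) F).trace = 0 := by
      rw [sub_mul, one_mul, ← smul_eq_mul, ← h2, sub_self]
    exact sub_eq_zero.1 ((mul_eq_zero.1 this).resolve_right hne)
  have h4 : c = 1 := Units.ext h3
  rw [hc, h4, map_one, one_mul]

/-- The bilinear form in the case of extraspecial two-groups -/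
theorem bilinear_form [Finite F] (h : ST 2 G E) (hn : 0 < n) (hR : Asc.env R = ⊤) (hRE : R ≤ E)
    (h2 : (2 : F) ≠ 0) (hn0 : (n : F) ≠ 0) (hneg : sc n F (-1) ∈ R)
    (hsq : ∀ x ∈ R, x ^ 2 = 1 ∨ x ^ 2 = sc n F (-1))
    (hRs : ∀ c : Fˣ, sc n F c ∈ R → c = 1 ∨ c = -1) :
    ∃ M : Matrix (Fin n) (Fin n) F, M.det ≠ 0 ∧
      (∀ x ∈ R, ((x : GL (Fin n) F) : Matrix (Fin n) (Fin n) F)ᵀ * M * (x : Matrix (Fin n) (Fin n) F) = M) ∧
      (Mᵀ = M ∨ Mᵀ = -M) := by
  classical
  haveI : Nonempty (Fin n) := ⟨⟨0, hn⟩⟩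
  haveI : Finite (GL (Fin n) F) := Finite.of_injective
      (fun g : GL (Fin n) F => ((g : Matrix (Fin n) (Fin n) F))) (fun a b h => Units.ext h)
  haveI : Fintype R := Fintype.ofFinite R
  let S : Matrix (Fin n) (Fin n) F → Matrix (Fin n) (Fin n) F := fun X =>
    ∑ x : R, ((x : GL (Fin n) F) : Matrix (Fin n) (Fin n) F)ᵀ * X * ((x : GL (Fin n) F) : Matrix (Fin n) (Fin n) F)
  have hSinv : ∀ X, ∀ y ∈ R, ((y : GL (Fin n) F) : Matrix (Fin n) (Fin n) F)ᵀ * S X * (y : Matrix (Fin n) (Fin n) F) = S X := by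
    intro X y hy
    show _ * (∑ x : R, _) * _ = ∑ x : R, _
    rw [Matrix.mul_sum, Matrix.sum_mul]
    rw [← Equiv.sum_comp (Equiv.mulRight (⟨y, hy⟩ : R))
      (fun x : R => ((x : GL (Fin n) F) : Matrix (Fin n) (Fin n) F)ᵀ * X * ((x : GL (Fin n) F) : Matrix (Fin n) (Fin n) F))]
    apply Finset.sum_congr rfl
    intro x _
    have : ((Equiv.mulRight (⟨y, hy⟩ : R) x : R) : GL (Fin n) F) = (x : GL (Fin n) F) * y := rfl
    rw [this, Units.val_mul, Matrix.transpose_mul]
    simp only [mul_assoc]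
  -- some S X is nonzero
  obtain ⟨X, hX⟩ : ∃ X, S X ≠ 0 := by
    by_contra hcon
    push Not at hcon
    -- the entries
    have h1 : ∀ a b c d, ∑ x : R, ((x : GL (Fin n) F) : Matrix (Fin n) (Fin n) F) a b *
        ((x : GL (Fin n) F) : Matrix (Fin n) (Fin n) F) c d = 0 := by
      intro a b c d
      have h2 := congrFun (congrFun (hcon (single a c 1)) b) d
      simp only [S, Matrix.sum_apply, Matrix.zero_apply] at h2
      rw [← h2]
      apply Finset.sum_congr rfl
      intro x _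
      rw [Matrix.mul_apply, Finset.sum_eq_single c]
      · rw [Matrix.mul_single_apply_same, Matrix.transpose_apply, mul_one]
      · intro y _ hy
        rw [Matrix.mul_single_apply_of_ne (hbj := hy), zero_mul]
      · simp
    -- the trace
    have h3 : ∀ a b, ∑ x : R, (((x : GL (Fin n) F) : Matrix (Fin n) (Fin n) F) a b) •
        ((x : GL (Fin n) F) : Matrix (Fin n) (Fin n) F) = 0 := by
      intro a b
      ext c d
      rw [Matrix.sum_apply]
      simp only [Matrix.smul_apply, smul_eq_mul, Matrix.zero_apply]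
      exact h1 a b c d
    have h4 : ∀ a b, ∑ x : R, ((x : GL (Fin n) F) : Matrix (Fin n) (Fin n) F) a b *
        ((x : GL (Fin n) F) : Matrix (Fin n) (Fin n) F).trace = 0 := by
      intro a b
      have := congrArg Matrix.trace (h3 a b)
      rw [Matrix.trace_sum, Matrix.trace_zero] at this
      simp only [Matrix.trace_smul, smul_eq_mul] at this
      exact this
    have hne1 : (1 : R) ≠ ⟨sc n F (-1), hneg⟩ := by
      intro he
      have h5 : sc n F 1 = sc n F (-1) := by
        rw [map_one]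
        exact congrArg Subtype.val he
      have h6 := sc_injective hn h5
      have h7 : (1 : F) = -1 := congrArg Units.val h6
      apply h2
      linear_combination h7
    have h5 := h4 ⟨0, hn⟩ ⟨0, hn⟩
    rw [← Finset.sum_subset (Finset.subset_univ ({(1 : R), ⟨sc n F (-1), hneg⟩} : Finset R))] at h5
    · rw [Finset.sum_pair hne1] at h5
      simp only [Subgroup.coe_one, Units.val_one, Matrix.one_apply_eq, Matrix.trace_one, Fintype.card_fin, sc_coe,
        Matrix.smul_apply, Matrix.trace_smul, Units.val_neg, smul_eq_mul] at h5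
      have h6 : (2 : F) * n = 0 := by linear_combination h5
      exact mul_ne_zero h2 hn0 h6
    · intro x _ hx
      have hxs : (x : GL (Fin n) F) ∉ scalars (Fin n) F := by
        rintro ⟨c, hc⟩
        apply hx
        have hc' : sc n F c = x := hc
        rcases hRs c (by rw [hc']; exact x.2) with h6 | h6
        · rw [Finset.mem_insert]; left
          apply Subtype.ext
          rw [← hc', h6, map_one]; rfl
        · rw [Finset.mem_insert, Finset.mem_singleton]; right
          apply Subtype.ext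
          rw [← hc', h6]
      rw [h.trace_zero hn (hRE x.2) hxs, mul_zero]
  have hinv := hSinv X
  set M := S X with hM
  have hirr := absIrr_of_env_top hR
  have hdet : M.det ≠ 0 := by
    intro h0
    obtain ⟨v, hv, hMv⟩ := Matrix.exists_mulVec_eq_zero_iff.2 h0
    rcases hirr.1 (LinearMap.ker (Matrix.toLin' M)) (by
      rintro _ ⟨y, hy, rfl⟩ _ ⟨w, hw, rfl⟩
      have hw' : M *ᵥ w = 0 := hw
      show M *ᵥ ((y : Matrix (Fin n) (Fin n) F) *ᵥ w) = 0
      have h1 : ((y : GL (Fin n) F) : Matrix (Fin n) (Fin n) F)ᵀ *ᵥ (M *ᵥ ((y : Matrix (Fin n) (Fin n) F) *ᵥ w)) = 0 := by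
        rw [Matrix.mulVec_mulVec, Matrix.mulVec_mulVec, hinv y hy, hw']
      have hty : IsUnit (((y : GL (Fin n) F) : Matrix (Fin n) (Fin n) F)ᵀ).det := by
        rw [Matrix.det_transpose]
        exact (Matrix.isUnit_iff_isUnit_det _).1 y.isUnit
      have h3 := congrArg (fun w => (((y : GL (Fin n) F) : Matrix (Fin n) (Fin n) F)ᵀ)⁻¹ *ᵥ w) h1
      simp only [Matrix.mulVec_zero] at h3
      rw [Matrix.mulVec_mulVec, Matrix.nonsing_inv_mul _ hty, Matrix.one_mulVec] at h3
      exact h3) with h1 | h1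
    · have : v ∈ LinearMap.ker (Matrix.toLin' M) := hMv
      rw [h1, Submodule.mem_bot] at this
      exact hv this
    · apply hX
      apply Matrix.toLin'.injective
      rw [map_zero]
      exact LinearMap.ker_eq_top.1 h1
  have hid : ∀ A : Matrix (Fin n) (Fin n) F, A.map (RingHom.id F) = A := fun A => by ext i j; rfl
  refine ⟨M, hdet, hinv, ?_⟩
  obtain ⟨c, hc⟩ := form_unique hirr (RingHom.id F) hdet (N := Mᵀ)
    (fun x hx => by rw [hid]; exact hinv x hx) (fun x hx => by
      rw [hid]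
      have := congrArg Matrix.transpose (hinv x hx)
      rw [Matrix.transpose_mul, Matrix.transpose_mul, Matrix.transpose_transpose, ← mul_assoc] at this
      exact this)
  have hcc : (c * c) • M = M := by
    have := congrArg Matrix.transpose hc
    rw [Matrix.transpose_transpose, Matrix.transpose_smul, hc, smul_smul] at this
    exact this.symm
  have hM0 : M ≠ 0 := hX
  have h6 : (c * c - 1) • M = 0 := by rw [sub_smul, one_smul, hcc, sub_self]
  have h7 := (smul_eq_zero.1 h6).resolve_right hM0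
  have h8 : (c - 1) * (c + 1) = 0 := by linear_combination h7
  rcases mul_eq_zero.1 h8 with h9 | h9
  · left
    rw [hc, sub_eq_zero.1 h9, one_smul]
  · right
    rw [hc, eq_neg_of_add_eq_zero_left h9, neg_smul, one_smul]

end Cfsg.Agent.H29.Asc
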