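import Mathlib
import Cfsg.Agent.H29_AscE4

set_option autoImplicit false

/-! groups of symplectic type: the case analysis -/

namespace Cfsg.Agent.H29.Asc

open Matrix Module Cfsg.Geo Cfsg.Agent.H29.AscF
open scoped commutatorElement

variable {F : Type*} [Field F] {n : ℕ} {r : ℕ} {G E R : Subgroup (GL (Fin n) F)}

theorem card_units [Fintype F] : Nat.card Fˣ = Fintype.card F - 1 := by
  classical
  rw [Nat.card_eq_fintype_card, Fintype.card_units]

theorem exists_gen [Fintype F] : ∃ g : Fˣ, orderOf g = Fintype.card F - 1 := by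
  obtain ⟨g, hg⟩ := IsCyclic.exists_ofOrder_eq_natCard (α := Fˣ)
  exact ⟨g, by rw [hg, card_units]⟩

theorem exists_prim [Fintype F] {s : ℕ} (h : s ∣ Fintype.card F - 1) : ∃ ζ : F, IsPrimitiveRoot ζ s := by
  obtain ⟨g, hg⟩ := exists_gen (F := F)
  obtain ⟨k, hk⟩ := h
  have hpos : 0 < Fintype.card F - 1 := by
    have := Fintype.one_lt_card (α := F)
    omega
  have hk0 : k ≠ 0 := by rintro rfl; omega
  have h1 : orderOf (g ^ k) = s := by
    rw [orderOf_pow_of_dvd hk0 (by rw [hg, hk]; exact Dvd.intro_left _ rfl), hg, hk,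
      Nat.mul_div_cancel _ (Nat.pos_of_ne_zero hk0)]
  refine ⟨((g ^ k : Fˣ) : F), ?_⟩
  rw [IsPrimitiveRoot.coe_units_iff, ← h1]
  exact IsPrimitiveRoot.orderOf _

theorem ST.not_le (h : ST r G E) [Finite F] (hn : 2 ≤ n) : ¬ E ≤ scalars (Fin n) F := by
  intro hle
  have h1 := h.card_quot (by omega)
  rw [Subgroup.relIndex_eq_one.2 hle] at h1
  nlinarith

theorem ST.exists_noncomm (h : ST r G E) [Finite F] (hn : 2 ≤ n) : ∃ c : Fˣ, orderOf c = r := by
  obtain ⟨x, hx, hxs⟩ := Set.not_subset.1 (h.not_le hn)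
  have hn0 : 0 < n := by omega
  by_contra hcon
  push Not at hcon
  apply hxs
  apply h.scalar_of_central hn0
  intro y hy
  obtain ⟨c, hc, hcr⟩ := h.exists_comm hn0 hx hy
  have h1 : orderOf c ∣ r := orderOf_dvd_of_pow_eq_one hcr
  rcases (Nat.dvd_prime h.hr).1 h1 with h2 | h2
  · rw [orderOf_eq_one_iff] at h2
    rw [hc, h2, map_one, one_mul]
  · exact absurd h2 (hcon c)

theorem ST.dvd (h : ST r G E) [Fintype F] (hn : 2 ≤ n) : r ∣ Fintype.card F - 1 := by
  obtain ⟨c, hc⟩ := h.exists_noncomm hn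
  rw [← hc, ← card_units]
  exact orderOf_dvd_natCard c

theorem card_roots [Fintype F] {s : ℕ} (hs : 0 < s) (h : s ∣ Fintype.card F - 1) :
    Nat.card {c : Fˣ // c ^ s = 1} = s := by
  obtain ⟨ζ, hζ⟩ := exists_prim h
  haveI : NeZero s := ⟨hs.ne'⟩
  exact hζ.card_rootsOfUnity

theorem SR.card_scalars (h : SR r G E R) [Fintype F] (hn : 0 < n) (hs : ex r ∣ Fintype.card F - 1) :
    Nat.card ((scalars (Fin n) F).subgroupOf R) = ex r := by
  rw [← card_roots (F := F) (ex_pos h.hr) hs]
  symm
  have hmem : ∀ c : Fˣ, c ^ ex r = 1 → sc n F c ∈ R := by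
    intro c hc
    rw [h.mem]
    exact ⟨h.Zle (sc_mem c), by rw [← map_pow, hc, map_one]⟩
  let f : {c : Fˣ // c ^ ex r = 1} → (scalars (Fin n) F).subgroupOf R := fun c =>
    ⟨⟨sc n F c, hmem c c.2⟩, sc_mem (c : Fˣ)⟩
  apply Nat.card_congr
  apply Equiv.ofBijective f
  constructor
  · intro a b hab
    have := congrArg (fun x : (scalars (Fin n) F).subgroupOf R => ((x : R) : GL (Fin n) F)) hab
    exact Subtype.ext (sc_injective hn this)
  · rintro ⟨⟨x, hx⟩, hxs⟩
    obtain ⟨c, hc⟩ := hxs
    have hc' : sc n F c = x := hc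
    refine ⟨⟨c, ?_⟩, Subtype.ext (Subtype.ext hc')⟩
    apply sc_injective hn
    rw [map_pow, hc', map_one]
    exact ((h.mem x).1 hx).2

theorem SR.card (h : SR r G E R) [Fintype F] (hn : 0 < n) (hs : ex r ∣ Fintype.card F - 1) :
    Nat.card R = ex r * (n * n) := by
  rw [← Subgroup.card_mul_index ((scalars (Fin n) F).subgroupOf R), h.card_scalars hn hs]
  congr 1
  exact h.relIndex hn

theorem SR.center (h : SR r G E R) (hn : 0 < n) :
    Subgroup.center R = (scalars (Fin n) F).subgroupOf R := by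
  ext x
  rw [Subgroup.mem_center_iff, Subgroup.mem_subgroupOf, ← h.central_iff hn]
  constructor
  · intro hx y hy
    exact (congrArg Subtype.val (hx ⟨y, hy⟩)).symm
  · intro hx y
    exact Subtype.ext (hx y y.2).symm

theorem SR.center_card (h : SR r G E R) [Fintype F] (hn : 0 < n) (hs : ex r ∣ Fintype.card F - 1) :
    Nat.card (Subgroup.center R) = ex r := by
  rw [h.center hn, h.card_scalars hn hs]

/-- characteristic abelian subgroups are cyclic -/
theorem SR.char_cyclic (h : SR r G E R) [Fintype F] (hn : 2 ≤ n) (A : Subgroup R) (hA : A.Characteristic)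
    (hab : IsMulCommutative A) : IsCyclic A := by
  have hn0 : 0 < n := by omega
  have hnorm : ∀ g ∈ G, ∀ x ∈ A.map R.subtype, g * x * g⁻¹ ∈ A.map R.subtype := by
    rintro g hg _ ⟨x, hx, rfl⟩
    let φ : R ≃* R :=
      { toFun := fun y => ⟨g * y * g⁻¹, h.normR hg y.2⟩
        invFun := fun y => ⟨g⁻¹ * y * g, by
          have := h.normR (G.inv_mem_iff.2 hg) y.2
          rwa [inv_inv] at this⟩
        left_inv := fun y => Subtype.ext (by show g⁻¹ * (g * (y : GL (Fin n) F) * g⁻¹) * g = y; group)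
        right_inv := fun y => Subtype.ext (by show g * (g⁻¹ * (y : GL (Fin n) F) * g) * g⁻¹ = y; group)
        map_mul' := fun y z => Subtype.ext (by
          show g * ((y : GL (Fin n) F) * z) * g⁻¹ = (g * y * g⁻¹) * (g * z * g⁻¹); group) }
    have h1 := (Subgroup.characteristic_iff_le_comap.1 hA) φ hx
    exact ⟨φ x, h1, rfl⟩
  have hmemA : ∀ x : R, (x : GL (Fin n) F) ∈ A.map R.subtype ↔ x ∈ A := by
    intro x
    constructor
    · rintro ⟨y, hy, hyx⟩
      rwa [← (Subtype.ext hyx : y = x)]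
    · intro hx; exact ⟨x, hx, rfl⟩
  have hcomm : ∀ x ∈ A, ∀ y ∈ A, x * y = y * x := by
    intro x hx y hy
    exact congrArg Subtype.val (hab.is_comm.comm (⟨x, hx⟩ : A) ⟨y, hy⟩)
  rcases h.min (A.map R.subtype ⊔ scalars (Fin n) F) le_sup_right
    (sup_le ((Subgroup.map_subtype_le _).trans h.le) h.Zle) (by
      intro g hg x hx
      rw [Subgroup.mem_sup_of_normal_right] at hx
      obtain ⟨y, hy, z, ⟨c, rfl⟩, rfl⟩ := hx
      have : g * (y * sc n F c) * g⁻¹ = (g * y * g⁻¹) * sc n F c := by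
        calc g * (y * sc n F c) * g⁻¹ = g * y * (sc n F c * g⁻¹) := by group
          _ = g * y * (g⁻¹ * sc n F c) := by rw [sc_comm]
          _ = _ := by group
      show g * (y * sc n F c) * g⁻¹ ∈ _
      rw [this]
      exact Subgroup.mul_mem _ (Subgroup.mem_sup_left (hnorm g hg y hy)) (Subgroup.mem_sup_right (sc_mem c)))
    with h1 | h1
  · -- scalar
    have h2 : ∀ x : A, ∃ c : Fˣ, sc n F c = ((x : R) : GL (Fin n) F) := fun x =>
      mem_scalars.1 (h1 (Subgroup.mem_sup_left ⟨x, x.2, rfl⟩))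
    choose f hf using h2
    let f' : A →* F :=
      { toFun := fun x => (f x : F)
        map_one' := by
          have : f 1 = 1 := sc_injective hn0 (by rw [hf, map_one]; rfl)
          rw [this]; rfl
        map_mul' := fun x y => by
          have : f (x * y) = f x * f y := sc_injective hn0 (by rw [hf, map_mul, hf, hf]; rfl)
          rw [this]; rfl }
    have hinj : Function.Injective f' := by
      intro x y hxy
      have h3 : f x = f y := Units.ext hxy
      have h4 : ((x : R) : GL (Fin n) F) = ((y : R) : GL (Fin n) F) := by rw [← hf, ← hf, h3]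
      exact Subtype.ext (Subtype.ext h4)
    haveI : Finite (GL (Fin n) F) := Finite.of_injective
      (fun g : GL (Fin n) F => ((g : Matrix (Fin n) (Fin n) F))) (fun a b h => Units.ext h)
    exact isCyclic_of_subgroup_isDomain f' hinj
  · exfalso
    apply h.not_le hn
    intro x hx
    apply h.scalar_of_central hn0
    intro y hy
    have hS : ∀ x ∈ A.map R.subtype ⊔ scalars (Fin n) F, ∃ a ∈ A, ∃ c : Fˣ, x = (a : GL (Fin n) F) * sc n F c := by
      intro x hx
      rw [Subgroup.mem_sup_of_normal_right] at hx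
      obtain ⟨y, ⟨a, ha, rfl⟩, z, ⟨c, rfl⟩, rfl⟩ := hx
      exact ⟨a, ha, c, rfl⟩
    obtain ⟨a, ha, c, rfl⟩ := hS x (h1 hx)
    obtain ⟨b, hb, d, rfl⟩ := hS y (h1 hy)
    have hab' : (a : GL (Fin n) F) * b = b * a := congrArg Subtype.val (hcomm a ha b hb)
    calc (a : GL (Fin n) F) * sc n F c * (b * sc n F d) = a * (sc n F c * b) * sc n F d := by group
      _ = (a * b) * (sc n F c * sc n F d) := by rw [sc_comm]; group
      _ = (b * a) * (sc n F d * sc n F c) := by rw [hab', sc_comm c (sc n F d)]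
      _ = b * (a * sc n F d) * sc n F c := by group
      _ = b * (sc n F d * a) * sc n F c := by rw [sc_comm d]
      _ = _ := by group

theorem SR.exponent (h : SR r G E R) [Fintype F] (hn : 0 < n) (hs : ex r ∣ Fintype.card F - 1) :
    Monoid.exponent R = r * Nat.gcd 2 r := by
  apply Nat.dvd_antisymm
  · apply Monoid.exponent_dvd_of_forall_pow_eq_one
    intro x
    exact Subtype.ext ((h.mem x).1 x.2).2
  · obtain ⟨ζ, hζ⟩ := exists_prim (F := F) hs
    have hu : IsUnit ζ := hζ.isUnit (ex_pos h.hr).ne'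
    obtain ⟨c, rfl⟩ := hu
    have hc : orderOf c = ex r := by
      rw [IsPrimitiveRoot.coe_units_iff] at hζ
      exact hζ.eq_orderOf.symm
    have hcR : sc n F c ∈ R := by
      rw [h.mem]
      refine ⟨h.Zle (sc_mem c), ?_⟩
      rw [← map_pow, ← hc, pow_orderOf_eq_one, map_one]
    have h1 : orderOf (⟨sc n F c, hcR⟩ : R) = ex r := by
      rw [← hc, ← orderOf_injective (sc n F) (sc_injective hn) c, ← Subgroup.orderOf_coe]
    show ex r ∣ _
    rw [← h1]
    exact Monoid.order_dvd_exponent _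

theorem SR.pgroup (h : SR r G E R) : IsPGroup r R := by
  intro x
  have hx := ((h.mem x).1 x.2).2
  by_cases h2 : r = 2
  · refine ⟨2, Subtype.ext ?_⟩
    subst h2
    exact hx
  · refine ⟨1, Subtype.ext ?_⟩
    rw [ex_odd h.hr h2] at hx
    rw [pow_one]
    exact hx

/-- the class 6 data -/
theorem SR.data (h : SR r G E R) [Fintype F] (hn : 3 ≤ n) {p e : ℕ} (hp : p.Prime) (hch : CharP F p)
    (hcard : Fintype.card F = p ^ e) (hrp : r ≠ p)
    (hs : ex r ∣ Fintype.card F - 1) (hmin : ∀ d : ℕ, 0 < d → d < e → ¬ ex r ∣ p ^ d - 1)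
    (he : Odd e) : IsLinearSymplecticTypeData r R := by
  have hn0 : 0 < n := by omega
  obtain ⟨m, hm⟩ := h.dim hn0
  have hm1 : 1 ≤ m := by
    rcases Nat.eq_zero_or_pos m with h0 | h0
    · subst h0; simp at hm; omega
    · exact h0
  refine ⟨⟨h.hr, h.pgroup, fun A hA hab => h.char_cyclic (by omega) A hA hab, h.exponent hn0 hs⟩,
    absIrr_of_env_top h.envR, p, e, hrp, ?_, ?_⟩
  · rw [h.center_card hn0 hs]
    exact ⟨hp, hch, hcard, by rw [← hcard]; exact hs, hmin⟩
  · have hc := h.center_card hn0 hs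
    have hR := h.card hn0 hs
    by_cases h2 : r = 2
    · right; left
      subst h2
      rw [ex_two] at hs hc hR hmin
      -- 4 ∣ p ^ e - 1 with e odd gives 4 ∣ p - 1, hence e = 1
      have he1 : e = 1 := by
        by_contra hne
        have he3 : 1 < e := by
          rcases he with ⟨k, hk⟩
          omega
        apply hmin 1 one_pos he3
        rw [pow_one]
        rw [hcard] at hs
        have hpodd : p % 4 = 1 ∨ p % 4 = 3 ∨ p % 2 = 0 := by omega
        rcases hpodd with h4 | h4 | h4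
        · omega
        · exfalso
          obtain ⟨k, hk⟩ := he
          have h5 : p ^ e % 4 = 3 := by
            rw [hk, pow_succ, pow_mul, Nat.mul_mod, Nat.pow_mod, Nat.pow_mod p 2 4, h4]
            norm_num
          have : 0 < p ^ e := pow_pos hp.pos e
          omega
        · exfalso
          have h5 : 2 ∣ p ^ e := dvd_pow (Nat.dvd_of_mod_eq_zero h4) (by omega)
          have : 0 < p ^ e := pow_pos hp.pos e
          omega
      refine ⟨rfl, he1, hc, ?_, m, ?_⟩
      · rw [Fintype.card_fin, hm]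
        have h5 : m ≠ 1 := by rintro rfl; simp at hm; omega
        calc 4 = 2 ^ 2 := rfl
          _ ≤ 2 ^ m := Nat.pow_le_pow_right (by norm_num) (by omega)
      · rw [hR, hm, ← pow_add, show 4 = 2 ^ 2 from rfl, ← pow_add]
        congr 1; ring
    · left
      rw [ex_odd h.hr h2] at hc hR
      refine ⟨h.hr.odd_of_ne_two h2, he, hc, m, hm1, ?_⟩
      rw [hR, hm, ← pow_add]
      conv_lhs => rw [← pow_one r, ← pow_mul, ← pow_add]
      congr 1
      ring

end Cfsg.Agent.H29.Asc
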