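import Mathlib
import Cfsg.Agent.H29_AscE5

set_option autoImplicit false

/-! groups of symplectic type: the five cases -/

namespace Cfsg.Agent.H29.Asc

open Matrix Module Cfsg.Geo Cfsg.Agent.H29.AscF
open scoped commutatorElement

variable {F : Type*} [Field F] {n : ℕ} {r : ℕ} {G E R : Subgroup (GL (Fin n) F)}

/-- the fixed field of a small power of Frobenius is proper -/
theorem frob_proper [Fintype F] {p e d : ℕ} [hp : Fact p.Prime] [CharP F p]
    (hcard : Fintype.card F = p ^ e) (hd : 0 < d) (hde : d < e) :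
    ∃ F₀ : Subfield F, F₀ ≠ ⊤ ∧ (∀ x : F, x ∈ F₀ ↔ x ^ p ^ d = x) := by
  let F₀ : Subfield F := (iterateFrobenius F p d).eqLocusField (RingHom.id F)
  have hmem : ∀ x : F, x ∈ F₀ ↔ x ^ p ^ d = x := fun x => Iff.rfl
  refine ⟨F₀, ?_, hmem⟩
  intro h
  obtain ⟨g, hg⟩ := exists_gen (F := F)
  have h1 : (g : F) ∈ F₀ := by rw [h]; trivial
  rw [hmem] at h1
  have h2 : g ^ (p ^ d - 1) = 1 := by
    have hpos : 0 < p ^ d := pow_pos hp.out.pos d
    have h3 : g ^ (p ^ d) = g := Units.ext (by rw [Units.val_pow_eq_pow_val]; exact h1)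
    have h4 : g ^ (p ^ d - 1) * g = 1 * g := by
      rw [← pow_succ, Nat.sub_add_cancel hpos, h3, one_mul]
    exact mul_right_cancel h4
  have h3 := orderOf_dvd_of_pow_eq_one h2
  rw [hg, hcard] at h3
  have h5 : p ^ d < p ^ e := Nat.pow_lt_pow_right hp.out.one_lt hde
  have h6 : 1 < p ^ d := Nat.one_lt_pow hd.ne' hp.out.one_lt
  have h7 := Nat.le_of_dvd (by omega) h3
  omega

/-- the involution of a field of square order -/
theorem exists_invol [Fintype F] {p e d : ℕ} [hp : Fact p.Prime] [CharP F p]
    (hcard : Fintype.card F = p ^ e) (hd : 0 < d) (hde : e = 2 * d) :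
    ∃ σ : F ≃+* F, σ ≠ RingEquiv.refl F ∧ (∀ a, σ (σ a) = a) ∧ ∀ a, σ a = a ^ p ^ d := by
  have h1 : Function.Bijective (iterateFrobenius F p d) :=
    (Finite.injective_iff_bijective).1 (iterateFrobenius F p d).injective
  let σ : F ≃+* F := RingEquiv.ofBijective (iterateFrobenius F p d) h1
  have hσ : ∀ a, σ a = a ^ p ^ d := fun a => rfl
  refine ⟨σ, ?_, ?_, hσ⟩
  · intro h
    obtain ⟨F₀, hF₀, hm⟩ := frob_proper hcard hd (by omega)
    apply hF₀
    rw [eq_top_iff]
    intro x _
    rw [hm, ← hσ, h]
    rfl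
  · intro a
    rw [hσ, hσ, ← pow_mul, ← pow_add, ← two_mul, ← hde, ← hcard]
    exact FiniteField.pow_card a

theorem SR.comm' (h : SR r G E R) : ∀ x ∈ R, ∀ y ∈ R, ⁅x, y⁆ ∈ scalars (Fin n) F :=
  fun x hx y hy => h.comm x (h.le hx) y (h.le hy)

/-- the five cases -/
theorem SR.cases (h : SR r G E R) [Fintype F] (hn : 3 ≤ n) :
    IsLinearSymplecticTypeData r R ∨
    (∃ F₀ : Subfield F, F₀ ≠ ⊤ ∧ RealisableOver F₀ (matrixSet R)) ∨
    (∃ (σ : F ≃+* F) (f : (Fin n → F) → (Fin n → F) → F), IsUnitaryForm σ f ∧ FixesForm (matrixSet R) f) ∨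
    (∃ f : (Fin n → F) → (Fin n → F) → F, IsSymplecticForm f ∧ FixesForm (matrixSet R) f) ∨
    (∃ Q : (Fin n → F) → F, IsNondegenerateQuadraticForm Q ∧ (2 : F) ≠ 0 ∧ FixesQuadForm (matrixSet R) Q) := by
  classical
  have hn0 : 0 < n := by omega
  obtain ⟨p, hch⟩ := CharP.exists F
  haveI := hch
  have hp : p.Prime := CharP.char_is_prime F p
  haveI : Fact p.Prime := ⟨hp⟩
  obtain ⟨e', -, hcard⟩ := FiniteField.card F p
  set e : ℕ := (e' : ℕ) with he
  have he0 : 0 < e := e'.pos
  have hrd := h.dvd (by omega)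
  have hq : 1 < Fintype.card F := Fintype.one_lt_card
  have hrp : r ≠ p := by
    rintro rfl
    rw [hcard] at hrd hq
    have h1 : r ∣ r ^ e := dvd_pow_self r he0.ne'
    have h2 : r ∣ 1 := by
      have h3 := Nat.dvd_sub h1 hrd
      have h4 : r ^ e - (r ^ e - 1) = 1 := by omega
      rwa [h4] at h3
    exact hp.one_lt.ne' (Nat.dvd_one.1 h2)
  by_cases hs : ex r ∣ Fintype.card F - 1
  · obtain ⟨ζ, hζ⟩ := exists_prim (F := F) hs
    obtain ⟨B, hB⟩ := monomial_basis hn0 (ex_pos h.hr) hζ R h.envR h.comm' (fun x hx => ((h.mem x).1 hx).2)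
    by_cases hmin : ∀ d : ℕ, 0 < d → d < e → ¬ ex r ∣ p ^ d - 1
    · rcases Nat.even_or_odd e with he2 | he2
      · -- unitary
        right; right; left
        obtain ⟨d, hd⟩ := he2
        have hd0 : 0 < d := by omega
        obtain ⟨σ, hσ1, hσ2, hσ3⟩ := exists_invol (F := F) hcard hd0 (show e = 2 * d by omega)
        refine ⟨σ, unitary_of_monomial hn0 R hB σ hσ1 hσ2 ?_⟩
        have hdvd : ex r ∣ p ^ d + 1 := by
          have h1 : p ^ e - 1 = (p ^ d + 1) * (p ^ d - 1) := by
            rw [hd, pow_add, ← Nat.sq_sub_sq, one_pow, sq]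
          rw [hcard, h1] at hs
          have h2 := hmin d hd0 (by omega)
          by_cases hr2 : r = 2
          · subst hr2
            rw [ex_two] at hs h2 ⊢
            rw [hcard] at hrd
            have hodd : p ^ d % 2 = 1 := by
              have : p % 2 = 1 := by
                rcases hp.eq_two_or_odd with h3 | h3
                · exact absurd h3.symm hrp
                · exact h3
              rw [Nat.pow_mod, this, one_pow]
              rfl
            have hpos : 0 < p ^ d := pow_pos hp.pos d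
            omega
          · rw [ex_odd h.hr hr2] at hs h2 ⊢
            exact (h.hr.dvd_mul.1 hs).resolve_right h2
        intro x hx
        rw [hσ3, ← pow_succ']
        obtain ⟨k, hk⟩ := hdvd
        rw [hk, pow_mul, hx, one_pow]
      · left
        exact h.data hn hp hch hcard hrp hs hmin he2
    · right; left
      push Not at hmin
      obtain ⟨d, hd0, hde, hd⟩ := hmin
      obtain ⟨F₀, hF₀, hm⟩ := frob_proper (F := F) hcard hd0 hde
      refine ⟨F₀, hF₀, real_of_monomial R hB F₀ ?_⟩
      intro x hx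
      rw [hm]
      obtain ⟨k, hk⟩ := hd
      have hpos : 0 < p ^ d := pow_pos hp.pos d
      have h1 : x ^ (p ^ d - 1) = 1 := by rw [hk, pow_mul, hx, one_pow]
      calc x ^ p ^ d = x ^ (p ^ d - 1) * x := by rw [← pow_succ, Nat.sub_add_cancel hpos]
        _ = x := by rw [h1, one_mul]
  · -- r = 2 and q = 3 mod 4
    right; right; right
    have hr2 : r = 2 := by
      by_contra h2
      apply hs
      rw [ex_odd h.hr h2]
      exact hrd
    subst hr2
    rw [ex_two] at hs
    have h2 : (2 : F) ≠ 0 := by
      intro h0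
      have h1 : (p : F) = 0 := CharP.cast_eq_zero F p
      have h3 : p ∣ 2 := (CharP.cast_eq_zero_iff F p 2).1 (by exact_mod_cast h0)
      have h4 := (Nat.prime_dvd_prime_iff_eq hp Nat.prime_two).1 h3
      exact hrp h4.symm
    have hroot : ∀ c : Fˣ, c ^ 4 = 1 → c ^ 2 = 1 := by
      intro c hc
      have h1 : orderOf c ∣ 4 := orderOf_dvd_of_pow_eq_one hc
      have h3 : orderOf c ∣ Fintype.card F - 1 := by
        rw [← card_units]; exact orderOf_dvd_natCard c
      apply orderOf_dvd_iff_pow_eq_one.1
      have h4 : orderOf c ≤ 4 := Nat.le_of_dvd (by norm_num) h1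
      interval_cases horder : orderOf c
      · simp at h1
      · norm_num
      · norm_num
      · norm_num at h1
      · exact absurd h3 hs
    have hsqrt : ∀ c : Fˣ, c ^ 2 = 1 → c = 1 ∨ c = -1 := by
      intro c hc
      have h1 : ((c : F) - 1) * ((c : F) + 1) = 0 := by
        have : (c : F) ^ 2 = 1 := by rw [← Units.val_pow_eq_pow_val, hc, Units.val_one]
        linear_combination this
      rcases mul_eq_zero.1 h1 with h3 | h3
      · left; exact Units.ext (sub_eq_zero.1 h3)
      · right
        apply Units.ext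
        rw [Units.val_neg, Units.val_one]
        exact eq_neg_of_add_eq_zero_left h3
    have hn00 : (n : F) ≠ 0 := by
      obtain ⟨m, hm⟩ := h.dim hn0
      rw [hm]
      push_cast
      exact pow_ne_zero _ h2
    obtain ⟨M, hdet, hinv, hsym⟩ := bilinear_form h.toST hn0 h.envR h.le h2 hn00 (by
        rw [h.mem]
        refine ⟨h.Zle (sc_mem _), ?_⟩
        rw [← map_pow, ex_two]
        have : (-1 : Fˣ) ^ 4 = 1 := by
          rw [show (4 : ℕ) = 2 * 2 from rfl, pow_mul, neg_one_sq, one_pow]
        rw [this, map_one]) (by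
        intro x hx
        obtain ⟨hxE, hx4⟩ := (h.mem x).1 hx
        obtain ⟨c, hc⟩ := mem_scalars.1 (h.pow x hxE)
        rw [← hc]
        have h4 : c ^ 2 = 1 := by
          apply sc_injective hn0
          rw [map_pow, hc, map_one, ← pow_mul]
          exact hx4
        rcases hsqrt c h4 with h5 | h5
        · left; rw [h5, map_one]
        · right; rw [h5]) (by
        intro c hc
        apply hsqrt
        apply hroot
        apply sc_injective hn0
        rw [map_pow, map_one]
        exact ((h.mem _).1 hc).2)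
    have hfix : ∀ x ∈ R, ∀ u v, sf (RingHom.id F) M ((x : Matrix (Fin n) (Fin n) F) *ᵥ u)
        ((x : Matrix (Fin n) (Fin n) F) *ᵥ v) = sf (RingHom.id F) M u v := by
      intro x hx
      apply (fixes_iff _ _ _).2
      have hid : ∀ A : Matrix (Fin n) (Fin n) F, A.map (RingHom.id F) = A := fun A => by ext i j; rfl
      rw [hid]
      exact hinv x hx
    have hnd : IsNondegenerateForm (sf (RingHom.id F) M) := nondeg_of_det (σ := RingEquiv.refl F) hdet
    have hbil : IsBilinearForm (sf (RingHom.id F) M) :=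
      { add_left := sf_add_left _ _
        smul_left := sf_smul_left _ _
        add_right := sf_add_right _ _
        smul_right := fun c v x => sf_smul_right _ _ c v x }
    have hsw : ∀ v w, sf (RingHom.id F) M v w = sf (RingHom.id F) Mᵀ w v := by
      intro v w
      have e1 : ∀ (M : Matrix (Fin n) (Fin n) F) (v w : Fin n → F), sf (RingHom.id F) M v w = v ⬝ᵥ (M *ᵥ w) :=
        fun _ _ _ => rfl
      rw [e1, e1, Matrix.dotProduct_mulVec, dotProduct_comm, Matrix.mulVec_transpose]
    rcases hsym with hM | hM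
    · right
      have hsy : ∀ v w, sf (RingHom.id F) M v w = sf (RingHom.id F) M w v := by
        intro v w; rw [hsw, hM]
      have hpol : QuadraticMap.polar (fun v => sf (RingHom.id F) M v v) = fun v w => 2 * sf (RingHom.id F) M v w := by
        funext v w
        unfold QuadraticMap.polar
        show sf (RingHom.id F) M (v + w) (v + w) - sf (RingHom.id F) M v v - sf (RingHom.id F) M w w = _
        rw [sf_add_left, sf_add_right, sf_add_right, hsy w v]
        ring
      refine ⟨fun v => sf (RingHom.id F) M v v, ⟨?_, ?_, ?_⟩, h2, ?_⟩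
      · intro c v
        show sf (RingHom.id F) M (c • v) (c • v) = _
        rw [sf_smul_left, sf_smul_right]
        simp only [RingHom.id_apply]
        ring
      · rw [hpol]
        exact
          { add_left := fun x y v => by rw [sf_add_left]; ring
            smul_left := fun c x v => by rw [sf_smul_left]; ring
            add_right := fun v x y => by rw [sf_add_right]; ring
            smul_right := fun c v x => by rw [sf_smul_right]; simp only [RingHom.id_apply]; ring }
      · rw [hpol]
        intro v hv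
        obtain ⟨⟨x, hx⟩, ⟨y, hy⟩⟩ := hnd v hv
        exact ⟨⟨x, mul_ne_zero h2 hx⟩, ⟨y, mul_ne_zero h2 hy⟩⟩
      · rintro _ ⟨x, hx, rfl⟩ v
        exact hfix x hx v v
    · left
      have hneg : ∀ v w, sf (RingHom.id F) M v w = - sf (RingHom.id F) M w v := by
        intro v w
        rw [hsw, hM]
        have e1 : ∀ (M : Matrix (Fin n) (Fin n) F) (v w : Fin n → F), sf (RingHom.id F) M v w = v ⬝ᵥ (M *ᵥ w) :=
          fun _ _ _ => rfl
        rw [e1, e1, Matrix.neg_mulVec, dotProduct_neg]
      refine ⟨sf (RingHom.id F) M, ⟨hbil, hneg, ?_, hnd⟩, ?_⟩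
      · intro v
        have h1 := hneg v v
        have h3 : (2 : F) * sf (RingHom.id F) M v v = 0 := by linear_combination h1
        exact (mul_eq_zero.1 h3).resolve_left h2
      · rintro _ ⟨x, hx, rfl⟩ u v
        exact hfix x hx u v

end Cfsg.Agent.H29.Asc
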