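import Mathlib
import Cfsg.Agent.H21_MinNorm

set_option autoImplicit false

/-! minimal normal subgroups modulo a central subgroup -/

namespace Cfsg.Agent.H29.GT

open Cfsg.Agent.H21.MinNorm
open scoped commutatorElement

variable {H : Type*} [Group H]

theorem perfect_pre (Z : Subgroup H) [hZn : Z.Normal] (hZ : Z ≤ Subgroup.center H) (X : Subgroup (H ⧸ Z)) (hX : ⁅X, X⁆ = X) :
    (∀ s ∈ X.comap (QuotientGroup.mk' Z), ∃ p ∈ ⁅X.comap (QuotientGroup.mk' Z), X.comap (QuotientGroup.mk' Z)⁆,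
      ∃ z ∈ Z, s = p * z) ∧
    ⁅⁅X.comap (QuotientGroup.mk' Z), X.comap (QuotientGroup.mk' Z)⁆,
      ⁅X.comap (QuotientGroup.mk' Z), X.comap (QuotientGroup.mk' Z)⁆⁆ =
      ⁅X.comap (QuotientGroup.mk' Z), X.comap (QuotientGroup.mk' Z)⁆ ∧
    (⁅X.comap (QuotientGroup.mk' Z), X.comap (QuotientGroup.mk' Z)⁆).map (QuotientGroup.mk' Z) = X := by
  set S := X.comap (QuotientGroup.mk' Z) with hS
  set P := ⁅S, S⁆ with hP
  have hmap : P.map (QuotientGroup.mk' Z) = X := by
    rw [hP, Subgroup.map_commutator, hS,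
      Subgroup.map_comap_eq_self_of_surjective (QuotientGroup.mk'_surjective Z), hX]
  have h1 : ∀ s ∈ S, ∃ p ∈ P, ∃ z ∈ Z, s = p * z := by
    intro s hs
    have h2 : QuotientGroup.mk' Z s ∈ P.map (QuotientGroup.mk' Z) := by rw [hmap]; exact hs
    obtain ⟨p, hp, hps⟩ := h2
    refine ⟨p, hp, p⁻¹ * s, ?_, by group⟩
    exact QuotientGroup.eq.1 hps
  refine ⟨h1, ?_, hmap⟩
  apply le_antisymm
  · exact Subgroup.commutator_mono (by
      rw [hP]; exact (Subgroup.commutator_le_self S)) (by rw [hP]; exact (Subgroup.commutator_le_self S))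
  · rw [hP, Subgroup.commutator_le]
    intro s hs s' hs'
    obtain ⟨p, hp, z, hz, rfl⟩ := h1 s hs
    obtain ⟨p', hp', z', hz', rfl⟩ := h1 s' hs'
    have hzc := Subgroup.mem_center_iff.1 (hZ hz)
    have hzc' := Subgroup.mem_center_iff.1 (hZ hz')
    have : ⁅p * z, p' * z'⁆ = ⁅p, p'⁆ := by
      rw [commutatorElement_def, commutatorElement_def]
      calc p * z * (p' * z') * (p * z)⁻¹ * (p' * z')⁻¹
          = p * (z * p') * z' * z⁻¹ * p⁻¹ * z'⁻¹ * p'⁻¹ := by group
        _ = p * p' * (z * z') * z⁻¹ * p⁻¹ * z'⁻¹ * p'⁻¹ := by rw [← hzc p']; group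
        _ = p * p' * (z' * z) * z⁻¹ * p⁻¹ * z'⁻¹ * p'⁻¹ := by rw [hzc z']
        _ = p * p' * (z' * p⁻¹) * z'⁻¹ * p'⁻¹ := by group
        _ = p * p' * (p⁻¹ * z') * z'⁻¹ * p'⁻¹ := by rw [hzc' p⁻¹]
        _ = _ := by group
    rw [this]
    exact Subgroup.commutator_mem_commutator hp hp'

theorem simple_perfect {T : Subgroup H} (hs : IsSimpleGroup T) (hna : ∃ x ∈ T, ∃ y ∈ T, x * y ≠ y * x) :
    ⁅T, T⁆ = T := by
  have h1 : (commutator T) = ⊥ ∨ commutator T = ⊤ :=
    hs.eq_bot_or_eq_top_of_normal (commutator T) inferInstance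
  have h2 : (commutator T).map T.subtype = ⁅T, T⁆ := by
    rw [commutator_def, Subgroup.map_commutator, ← MonoidHom.range_eq_map, Subgroup.range_subtype]
  rcases h1 with h | h
  · exfalso
    obtain ⟨x, hx, y, hy, hxy⟩ := hna
    apply hxy
    have h3 : ⁅x, y⁆ ∈ ⁅T, T⁆ := Subgroup.commutator_mem_commutator hx hy
    rw [← h2, h, Subgroup.map_bot, Subgroup.mem_bot, commutatorElement_eq_one_iff_mul_comm] at h3
    exact h3
  · rw [← h2, h, ← MonoidHom.range_eq_map, Subgroup.range_subtype]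

theorem simple_quot {K : Type*} [Group K] (f : H →* K) (P : Subgroup H) (hs : IsSimpleGroup (P.map f)) :
    IsSimpleGroup (P ⧸ f.ker.subgroupOf P) := by
  let g : P →* (P.map f) := f.subgroupMap P
  have hg : Function.Surjective g := f.subgroupMap_surjective P
  have hker : g.ker = f.ker.subgroupOf P := by
    ext x
    rw [MonoidHom.mem_ker, Subgroup.mem_subgroupOf, MonoidHom.mem_ker]
    constructor
    · intro h; exact congrArg Subtype.val h
    · intro h; exact Subtype.ext h
  have e : (P ⧸ g.ker) ≃* (P.map f) := QuotientGroup.quotientKerEquivOfSurjective g hg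
  haveI := hs
  exact ((QuotientGroup.quotientMulEquivOfEq hker).symm.trans e).isSimpleGroup

theorem commute_of_perfect {Z P : Subgroup H} (hZ : Z ≤ Subgroup.center H) (hP : ⁅P, P⁆ = P) {h : H}
    (hc : ∀ x ∈ P, ⁅h, x⁆ ∈ Z) : ∀ x ∈ P, h * x = x * h := by
  -- the subgroup of P of elements commuting with h contains all commutators
  intro x hx
  have hle : P ≤ Subgroup.centralizer {h} := by
    rw [← hP, Subgroup.commutator_le]
    intro a ha b hb
    rw [Subgroup.mem_centralizer_singleton_iff]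
    obtain ⟨za, hza, ea⟩ : ∃ z ∈ Z, h * a * h⁻¹ = z * a := ⟨⁅h, a⁆, hc a ha, by
      rw [commutatorElement_def]; group⟩
    obtain ⟨zb, hzb, eb⟩ : ∃ z ∈ Z, h * b * h⁻¹ = z * b := ⟨⁅h, b⁆, hc b hb, by
      rw [commutatorElement_def]; group⟩
    have hca := Subgroup.mem_center_iff.1 (hZ hza)
    have hcb := Subgroup.mem_center_iff.1 (hZ hzb)
    have h1 : h * ⁅a, b⁆ * h⁻¹ = ⁅h * a * h⁻¹, h * b * h⁻¹⁆ := by
      rw [commutatorElement_def, commutatorElement_def]; group
    have h2 : ⁅za * a, zb * b⁆ = ⁅a, b⁆ := by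
      rw [commutatorElement_def, commutatorElement_def]
      calc za * a * (zb * b) * (za * a)⁻¹ * (zb * b)⁻¹
          = za * (a * zb) * b * a⁻¹ * za⁻¹ * b⁻¹ * zb⁻¹ := by group
        _ = za * (zb * a) * b * a⁻¹ * za⁻¹ * b⁻¹ * zb⁻¹ := by rw [hcb a]
        _ = (za * (zb * (a * b * a⁻¹))) * (za⁻¹ * b⁻¹ * zb⁻¹) := by group
        _ = ((zb * (a * b * a⁻¹)) * za) * (za⁻¹ * b⁻¹ * zb⁻¹) := by rw [← hca]
        _ = (zb * (a * b * a⁻¹ * b⁻¹)) * zb⁻¹ := by group
        _ = ((a * b * a⁻¹ * b⁻¹) * zb) * zb⁻¹ := by rw [← hcb]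
        _ = _ := by group
    rw [ea, eb, h2] at h1
    symm
    calc h * ⁅a, b⁆ = (h * ⁅a, b⁆ * h⁻¹) * h := by group
      _ = ⁅a, b⁆ * h := by rw [h1]
  have := hle hx
  rw [Subgroup.mem_centralizer_singleton_iff] at this
  exact this.symm

theorem cj_simple {g : H} {T : Subgroup H} (h : IsSimpleGroup T) : IsSimpleGroup (cj g T) := by
  haveI := h
  exact (cjEquiv g T).symm.isSimpleGroup

theorem cj_nonab {g : H} {T : Subgroup H} (h : ∃ x ∈ T, ∃ y ∈ T, x * y ≠ y * x) :
    ∃ x ∈ cj g T, ∃ y ∈ cj g T, x * y ≠ y * x := by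
  obtain ⟨x, hx, y, hy, hxy⟩ := h
  refine ⟨_, cj_mem hx, _, cj_mem hy, ?_⟩
  intro he
  apply hxy
  have h1 : g * (x * y) * g⁻¹ = g * (y * x) * g⁻¹ := by
    calc g * (x * y) * g⁻¹ = (g * x * g⁻¹) * (g * y * g⁻¹) := by group
      _ = (g * y * g⁻¹) * (g * x * g⁻¹) := he
      _ = _ := by group
  have h2 := mul_right_cancel h1
  exact mul_left_cancel h2

/-- the structure of a minimal normal subgroup modulo a central subgroup -/
theorem main [Finite H] (Z : Subgroup H) [Z.Normal] (hZ : Z ≤ Subgroup.center H) (hne : Z ≠ ⊤) :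
    ∃ N : Subgroup H, N.Normal ∧ Z < N ∧
      (∀ M : Subgroup H, M.Normal → Z ≤ M → M ≤ N → M = Z ∨ M = N) ∧
      (((∀ x ∈ N, ∀ y ∈ N, ⁅x, y⁆ ∈ Z) ∧ ∃ r : ℕ, r.Prime ∧ ∀ x ∈ N, x ^ r ∈ Z) ∨
      ∃ (k : ℕ) (P : Fin k → Subgroup H), 0 < k ∧ (∀ i, P i ≤ N) ∧ (∀ i, ⁅P i, P i⁆ = P i) ∧
        (∀ i, ¬ P i ≤ Z) ∧ (∀ i, IsSimpleGroup (P i ⧸ Z.subgroupOf (P i))) ∧
        (∀ i j, i ≠ j → ∀ x ∈ P i, ∀ y ∈ P j, x * y = y * x) ∧
        (∀ g : H, ∃ σ : Equiv.Perm (Fin k), ∀ i, (P i).map (MulAut.conj g).toMonoidHom = P (σ i)) ∧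
        (∀ i j, ∃ g : H, (P i).map (MulAut.conj g).toMonoidHom = P j) ∧ N ≤ (⨆ i, P i) ⊔ Z) := by
  classical
  set π := QuotientGroup.mk' Z with hπ
  have hπs : Function.Surjective π := QuotientGroup.mk'_surjective Z
  have hker : π.ker = Z := QuotientGroup.ker_mk' Z
  have htop : (⊤ : Subgroup (H ⧸ Z)) ≠ ⊥ := by
    intro h
    apply hne
    rw [eq_top_iff]
    intro x _
    have : π x ∈ (⊥ : Subgroup (H ⧸ Z)) := by rw [← h]; trivial
    rw [Subgroup.mem_bot] at this
    rw [← hker]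
    exact this
  obtain ⟨X, hXn, hX1, -, hXmin⟩ := exists_minimal (G := H ⧸ Z) (K := ⊤) inferInstance htop
  have hZm : ∀ x, x ∈ Z ↔ π x = 1 := by
    intro x
    rw [← MonoidHom.mem_ker, hker]
  have hZN : Z ≤ X.comap π := by
    intro x hx
    rw [Subgroup.mem_comap, (hZm x).1 hx]
    exact X.one_mem
  refine ⟨X.comap π, inferInstance, lt_of_le_of_ne hZN ?_, ?_, ?_⟩
  · intro h
    apply hX1
    rw [eq_bot_iff]
    intro q hq
    obtain ⟨x, rfl⟩ := hπs q
    have : x ∈ X.comap π := hq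
    rw [← h, ← hker] at this
    exact this
  · intro M hM hZM hMN
    have h1 : (M.map π).Normal := hM.map π hπs
    have h2 : (M.map π).comap π = M := by
      rw [Subgroup.comap_map_eq, hker, sup_eq_left]
      exact hZM
    rcases hXmin (M.map π) h1 (by rw [Subgroup.map_le_iff_le_comap]; exact hMN) with h | h
    · left
      rw [← h2, h]
      ext x
      rw [Subgroup.mem_comap, Subgroup.mem_bot, ← MonoidHom.mem_ker, hker]
    · right
      rw [← h2, h]
  · rcases structure_weak hXn hX1 hXmin with hab | ⟨T, hT, hTs, hTna, hTsup, hTd⟩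
    · left
      refine ⟨?_, ?_⟩
      · intro x hx y hy
        rw [hZm, map_commutatorElement, commutatorElement_eq_one_iff_mul_comm]
        exact hab _ hx _ hy
      · obtain ⟨r, hr, h⟩ := elementary_of_abelian hXn hX1 hXmin hab
        refine ⟨r, hr, fun x hx => ?_⟩
        rw [hZm, map_pow]
        exact h _ hx
    · right
      let I : Set (Subgroup (H ⧸ Z)) := Set.range (fun q : H ⧸ Z => cj q T)
      haveI : Finite I := Set.finite_range _
      obtain ⟨e⟩ : Nonempty (I ≃ Fin (Nat.card I)) := ⟨Finite.equivFin I⟩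
      let C : Fin (Nat.card I) → Subgroup (H ⧸ Z) := fun i => (e.symm i : Subgroup (H ⧸ Z))
      have hCr : ∀ i, ∃ q, cj q T = C i := fun i => (e.symm i).2
      have hCinj : Function.Injective C := fun i j h => e.symm.injective (Subtype.ext h)
      have hCsurj : ∀ q, ∃ i, C i = cj q T := fun q => ⟨e ⟨cj q T, q, rfl⟩, by
        show ((e.symm (e ⟨cj q T, q, rfl⟩) : I) : Subgroup (H ⧸ Z)) = _
        rw [Equiv.symm_apply_apply]⟩
      have hCs : ∀ i, IsSimpleGroup (C i) := by
        intro i; obtain ⟨q, hq⟩ := hCr i; rw [← hq]; exact cj_simple hTs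
      have hCna : ∀ i, ∃ x ∈ C i, ∃ y ∈ C i, x * y ≠ y * x := by
        intro i; obtain ⟨q, hq⟩ := hCr i; rw [← hq]; exact cj_nonab hTna
      have hCp : ∀ i, ⁅C i, C i⁆ = C i := fun i => simple_perfect (hCs i) (hCna i)
      have hMS : ∀ i, MS X (C i) := by
        intro i; obtain ⟨q, hq⟩ := hCr i; rw [← hq]; exact hT.cj hXn q
      have hcj : ∀ (q : H ⧸ Z) (i : Fin (Nat.card I)), ∃ j, C j = cj q (C i) := by
        intro q i
        obtain ⟨q', hq'⟩ := hCr i
        obtain ⟨j, hj⟩ := hCsurj (q * q')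
        exact ⟨j, by rw [hj, ← hq', cj_mul]⟩
      let P : Fin (Nat.card I) → Subgroup H := fun i => ⁅(C i).comap π, (C i).comap π⁆
      have hpre := fun i => perfect_pre Z hZ (C i) (hCp i)
      have hPmap : ∀ i, (P i).map π = C i := fun i => (hpre i).2.2
      have hmapcj : ∀ (g : H) (D : Subgroup (H ⧸ Z)), (D.comap π).map (MulAut.conj g).toMonoidHom =
          (cj (π g) D).comap π := by
        intro g D
        ext x
        constructor
        · rintro ⟨y, hy, rfl⟩
          rw [Subgroup.mem_comap, mem_cj]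
          have : (π g)⁻¹ * π ((MulAut.conj g).toMonoidHom y) * π g = π y := by
            rw [← map_inv, ← map_mul, ← map_mul]
            congr 1
            simp [mul_assoc]
          rw [this]; exact hy
        · intro hx
          rw [Subgroup.mem_comap, mem_cj, ← map_inv, ← map_mul, ← map_mul] at hx
          exact ⟨g⁻¹ * x * g, hx, by simp [mul_assoc]⟩
      have hPcj : ∀ (g : H) (i j : Fin (Nat.card I)), C j = cj (π g) (C i) →
          (P i).map (MulAut.conj g).toMonoidHom = P j := by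
        intro g i j hij
        show (⁅(C i).comap π, (C i).comap π⁆).map _ = ⁅(C j).comap π, (C j).comap π⁆
        rw [Subgroup.map_commutator, hmapcj, ← hij]
      have hPle : ∀ i, P i ≤ X.comap π := by
        intro i
        refine (Subgroup.commutator_le_self _).trans ?_
        exact Subgroup.comap_mono (hMS i).1.1
      refine ⟨Nat.card I, P, ?_, hPle, fun i => (hpre i).2.1, ?_, ?_, ?_, ?_, ?_, ?_⟩
      · have : Nonempty I := ⟨⟨cj 1 T, 1, rfl⟩⟩
        exact Nat.card_pos
      · intro i hi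
        apply (hMS i).1.2.1
        rw [← hPmap i, eq_bot_iff]
        rintro _ ⟨x, hx, rfl⟩
        have := hi hx
        rw [hZm] at this
        rw [this]; exact Subgroup.one_mem _
      · intro i
        have h1 : IsSimpleGroup ((P i).map π) := by rw [hPmap]; exact hCs i
        have h2 := simple_quot π (P i) h1
        haveI := h2
        have h3 : Z.subgroupOf (P i) = π.ker.subgroupOf (P i) := by rw [hker]
        exact (QuotientGroup.quotientMulEquivOfEq h3).isSimpleGroup
      · intro i j hij x hx y hy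
        have h1 := (MS.disj (hMS i) (hMS j) (fun h => hij (hCinj h))).2
        apply commute_of_perfect hZ (hpre j).2.1 _ y hy
        intro y hy
        rw [hZm, map_commutatorElement, commutatorElement_eq_one_iff_mul_comm]
        apply h1
        · rw [← hPmap i]; exact ⟨x, hx, rfl⟩
        · rw [← hPmap j]; exact ⟨y, hy, rfl⟩
      · intro g
        choose f hf using hcj (π g)
        choose f' hf' using hcj (π g)⁻¹
        have h1 : ∀ i, f' (f i) = i := by
          intro i
          apply hCinj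
          rw [hf', hf, ← cj_mul, inv_mul_cancel, cj_one]
        have h2 : ∀ i, f (f' i) = i := by
          intro i
          apply hCinj
          rw [hf, hf', ← cj_mul, mul_inv_cancel, cj_one]
        exact ⟨⟨f, f', h1, h2⟩, fun i => hPcj g i _ (hf i)⟩
      · intro i j
        obtain ⟨q, hq⟩ := hCr i
        obtain ⟨q', hq'⟩ := hCr j
        obtain ⟨g, hg⟩ := hπs (q' * q⁻¹)
        refine ⟨g, hPcj g i j ?_⟩
        rw [hg, ← hq, ← hq', ← cj_mul, inv_mul_cancel_right]
      · have h1 : X ≤ ((⨆ i, P i) ⊔ Z).map π := by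
          rw [← hTsup, iSup_le_iff]
          intro q
          obtain ⟨i, hi⟩ := hCsurj q
          rw [← hi, ← hPmap i]
          exact Subgroup.map_mono ((le_iSup P i).trans le_sup_left)
        have h2 := Subgroup.comap_mono (f := π) h1
        rw [Subgroup.comap_map_eq, hker, sup_assoc, sup_idem] at h2
        exact h2

end Cfsg.Agent.H29.GT
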