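import Mathlib
import Cfsg.Agent.H29_AscS
import Cfsg.Agent.H29_GT

set_option autoImplicit false

/-! central products acting absolutely irreducibly are tensor powers -/

namespace Cfsg.Agent.H29.Asc

open Matrix Module Cfsg.Agent.H29.Clifford Cfsg.Geo Cfsg.Agent.H29.AscT
open scoped commutatorElement

variable {F : Type*} [Field F] {n : ℕ}

theorem env_commute {P Q : Subgroup (GL (Fin n) F)} (h : ∀ x ∈ P, ∀ y ∈ Q, x * y = y * x)
    {u v : Module.End F (Fin n → F)} (hu : u ∈ env P) (hv : v ∈ env Q) : u * v = v * u := by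
  apply commute_env (P := Q) _ hv
  intro y hy
  symm
  apply commute_env (P := P) _ hu
  intro x hx
  rw [← map_mul, ← map_mul, ← Units.val_mul, ← Units.val_mul, h x hx y hy]

theorem iSup_normalises {k : ℕ} (P : Fin k → Subgroup (GL (Fin n) F))
    (hcomm : ∀ i j, i ≠ j → ∀ x ∈ P i, ∀ y ∈ P j, x * y = y * x) (i : Fin k) :
    ∀ g ∈ (⨆ i, P i), ∀ x ∈ P i, g * x * g⁻¹ ∈ P i := by
  intro g hg
  refine Subgroup.iSup_induction P (C := fun g => ∀ x ∈ P i, g * x * g⁻¹ ∈ P i) hg ?_ ?_ ?_
  · intro j g hg x hx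
    by_cases hij : j = i
    · subst hij
      exact (P j).mul_mem ((P j).mul_mem hg hx) ((P j).inv_mem hg)
    · rw [hcomm j i hij g hg x hx, mul_inv_cancel_right]
      exact hx
  · intro x hx; simpa using hx
  · intro a b ha hb x hx
    have := ha _ (hb x hx)
    have e : a * b * x * (a * b)⁻¹ = a * (b * x * b⁻¹) * a⁻¹ := by group
    rw [e]; exact this

/-- the enveloping algebra of a central factor is a matrix algebra -/
theorem factor_matrix [Fintype F] (hn : 0 < n) {k : ℕ} (P : Fin k → Subgroup (GL (Fin n) F))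
    (hcomm : ∀ i j, i ≠ j → ∀ x ∈ P i, ∀ y ∈ P j, x * y = y * x)
    (henv : env (⨆ i, P i) = ⊤) (i : Fin k) :
    ∃ w : ℕ, 0 < w ∧ Nonempty (env (P i) ≃ₐ[F] Matrix (Fin w) (Fin w) F) := by
  classical
  haveI : Nonempty (Fin n) := ⟨⟨0, hn⟩⟩
  haveI : Nontrivial (Fin n → F) := inferInstance
  set R := env (P i) with hR
  let G' : Set ((Fin n → F) ≃ₗ[F] (Fin n → F)) := {h | ∃ g ∈ (⨆ i, P i), h = glEquiv g}
  have hN : ∀ g ∈ (⨆ i, P i), Normalises R (glEquiv g) := by
    intro g hg
    apply env_normalises (iSup_normalises P hcomm i g hg)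
    intro x hx
    have := iSup_normalises P hcomm i g⁻¹ (Subgroup.inv_mem _ hg) x hx
    rwa [inv_inv] at this
  have hG : ∀ h ∈ G', Normalises R h := by
    rintro h ⟨g, hg, rfl⟩; exact hN g hg
  have hmul : ∀ a ∈ G', ∀ b ∈ G', b.trans a ∈ G' := by
    rintro a ⟨g, hg, rfl⟩ b ⟨k, hk, rfl⟩
    refine ⟨g * k, Subgroup.mul_mem _ hg hk, ?_⟩
    apply LinearEquiv.toLinearMap_injective
    rw [glEquiv_coe, Units.val_mul, Matrix.toLin'_mul]
    rfl
  have hone : LinearEquiv.refl F (Fin n → F) ∈ G' := by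
    refine ⟨1, Subgroup.one_mem _, ?_⟩
    apply LinearEquiv.toLinearMap_injective
    rw [glEquiv_coe, Units.val_one, Matrix.toLin'_one]
    rfl
  have hirr0 : ActsIrreducibly (matrixSet (⨆ i, P i)) := (absIrr_of_env_top henv).1
  have hirr' : ∀ W : Submodule F (Fin n → F), (∀ h ∈ G', W.map (h : (Fin n → F) →ₗ[F] (Fin n → F)) ≤ W) →
      W = ⊥ ∨ W = ⊤ := by
    intro W hW
    apply hirr0 W
    rintro _ ⟨g, hg, rfl⟩
    exact hW _ ⟨g, hg, rfl⟩
  have hss : IsSemisimpleModule R (Fin n → F) := semisimple R G' hG hmul hone hirr'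
  have hcomp : ∀ c ∈ isotypicComponents R (Fin n → F), c = ⊤ := by
    intro c hc
    have hst : ∀ g ∈ (⨆ i, P i), ∀ w ∈ c, (g : Matrix (Fin n) (Fin n) F) *ᵥ w ∈ c := by
      intro g hg
      refine Subgroup.iSup_induction P
        (C := fun g => ∀ w ∈ c, (g : Matrix (Fin n) (Fin n) F) *ᵥ w ∈ c) hg ?_ ?_ ?_
      · intro j g hg w hw
        by_cases hij : j = i
        · subst hij
          exact c.smul_mem (⟨_, mem_env hg⟩ : R) hw
        · have hfi := Submodule.IsFullyInvariant.of_mem_isotypicComponents hc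
          let f : Module.End R (Fin n → F) :=
            { toFun := fun v => (g : Matrix (Fin n) (Fin n) F) *ᵥ v
              map_add' := fun x y => Matrix.mulVec_add _ _ _
              map_smul' := by
                rintro ⟨r, hr⟩ v
                have h1 := env_commute (fun x hx y hy => hcomm j i hij x hx y hy) (mem_env hg) hr
                exact LinearMap.congr_fun h1 v }
          exact hfi f hw
      · intro w hw; rw [Units.val_one, Matrix.one_mulVec]; exact hw
      · intro a b ha hb w hw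
        rw [Units.val_mul, ← Matrix.mulVec_mulVec]
        exact ha _ (hb w hw)
    have h1 : c.restrictScalars F = ⊥ ∨ c.restrictScalars F = ⊤ := by
      apply hirr0
      rintro _ ⟨g, hg, rfl⟩ _ ⟨w, hw, rfl⟩
      exact hst g hg w hw
    rcases h1 with h1 | h1
    · exfalso
      have := bot_lt_isotypicComponents hc
      apply this.ne'
      rw [eq_bot_iff]
      intro x hx
      have : x ∈ c.restrictScalars F := hx
      rw [h1] at this
      simpa using this
    · rw [eq_top_iff]
      intro x _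
      have : x ∈ c.restrictScalars F := by rw [h1]; trivial
      exact this
  have hiso : IsIsotypic R (Fin n → F) := isotypic_of_unique R
    (fun c hc d hd => by rw [hcomp c hc, hcomp d hd])
  obtain ⟨hs, ha⟩ := simple_of_isotypic R hss hiso
  refine exists_matrix_equiv R hs ha ?_
  intro z hz hcen
  apply centre_top
  intro r
  apply commute_env (P := ⨆ i, P i) _ (by rw [henv]; trivial)
  intro g hg
  refine Subgroup.iSup_induction P
    (C := fun g => z * tl n F (g : Matrix (Fin n) (Fin n) F) = tl n F (g : Matrix (Fin n) (Fin n) F) * z)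
    hg ?_ ?_ ?_
  · intro j g hg
    by_cases hij : j = i
    · subst hij
      exact hcen _ (mem_env hg)
    · exact (env_commute (fun x hx y hy => hcomm j i hij x hx y hy) (mem_env hg) hz).symm
  · rw [Units.val_one, map_one, one_mul, mul_one]
  · intro a b ha hb
    rw [Units.val_mul, map_mul, ← mul_assoc, ha, mul_assoc, hb, mul_assoc]

theorem cjA_env {P Q : Subgroup (GL (Fin n) F)} {g : GL (Fin n) F} (h : ∀ x ∈ P, g * x * g⁻¹ ∈ Q)
    {r : Module.End F (Fin n → F)} (hr : r ∈ env P) : cjA g r ∈ env Q := by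
  induction hr using Algebra.adjoin_induction with
  | mem r hr =>
    obtain ⟨_, ⟨x, hx, rfl⟩, rfl⟩ := hr
    have : cjA g (tl n F (x : Matrix (Fin n) (Fin n) F)) =
        tl n F ((g * x * g⁻¹ : GL (Fin n) F) : Matrix (Fin n) (Fin n) F) := by
      rw [cjA_tl, ← Units.val_mul, ← Units.val_mul]
    rw [this]
    exact mem_env (h x hx)
  | algebraMap c => rw [AlgEquiv.commutes]; exact Subalgebra.algebraMap_mem _ _
  | add x y _ _ hx hy => rw [map_add]; exact Subalgebra.add_mem _ hx hy
  | mul x y _ _ hx hy => rw [map_mul]; exact Subalgebra.mul_mem _ hx hy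

theorem finrank_env_le {P Q : Subgroup (GL (Fin n) F)} {g : GL (Fin n) F} (h : ∀ x ∈ P, g * x * g⁻¹ ∈ Q) :
    finrank F (env P) ≤ finrank F (env Q) := by
  let f : env P →ₗ[F] env Q :=
    { toFun := fun r => ⟨cjA g r, cjA_env h r.2⟩
      map_add' := fun x y => Subtype.ext (map_add (cjA g) _ _)
      map_smul' := fun c x => Subtype.ext (map_smul (cjA g) _ _) }
  apply LinearMap.finrank_le_finrank_of_injective (f := f)
  intro x y hxy
  have := congrArg Subtype.val hxy
  exact Subtype.ext ((cjA g).injective this)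

/-- A central product acting absolutely irreducibly whose factors are permuted transitively
leads to a tensor power decomposition. -/
theorem tensor_power [Fintype F] (hn : 0 < n) {k : ℕ} (hk : 0 < k) (P : Fin k → Subgroup (GL (Fin n) F))
    (hcomm : ∀ i j, i ≠ j → ∀ x ∈ P i, ∀ y ∈ P j, x * y = y * x)
    (henv : env (⨆ i, P i) = ⊤) (hns : ∀ i, ¬ P i ≤ scalars (Fin n) F)
    (G : Subgroup (GL (Fin n) F))
    (hperm : ∀ g ∈ G, ∃ σ : Equiv.Perm (Fin k), ∀ i, ∀ x ∈ P i, g * x * g⁻¹ ∈ P (σ i))
    (htr : ∀ i j, ∃ g : GL (Fin n) F, ∀ x ∈ P i, g * x * g⁻¹ ∈ P j) :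
    ∃ (m : ℕ) (e : Fin n ≃ (Fin k → Fin m)) (Q : GL (Fin n) F), 2 ≤ m ∧
      G ≤ tensorWreathSubgroup m k e Q := by
  classical
  haveI : Nonempty (Fin n) := ⟨⟨0, hn⟩⟩
  haveI : Nontrivial (Fin n → F) := inferInstance
  choose w hw0 hw using factor_matrix hn P hcomm henv
  have hww : ∀ i j, w i * w i ≤ w j * w j := by
    intro i j
    obtain ⟨g, hg⟩ := htr i j
    have := finrank_env_le hg
    rwa [finrank_of_equiv _ (hw i).some, finrank_of_equiv _ (hw j).some] at this
  have hweq : ∀ i j, w i = w j := fun i j => Nat.mul_self_inj.1 (le_antisymm (hww i j) (hww j i))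
  obtain ⟨m, hm⟩ : ∃ m, ∀ i, w i = m := ⟨w ⟨0, hk⟩, fun i => hweq _ _⟩
  have hm0 : 0 < m := by rw [← hm ⟨0, hk⟩]; exact hw0 _
  have he : ∀ i, Nonempty (env (P i) ≃ₐ[F] Matrix (Fin m) (Fin m) F) := by
    intro i; rw [← hm i]; exact hw i
  let e := fun i => (he i).some
  have hm2 : 2 ≤ m := by
    by_contra hcon
    have hm1 : m = 1 := by omega
    subst hm1
    apply hns ⟨0, hk⟩
    apply scalar_of_finrank hn
    rw [finrank_of_equiv _ (e ⟨0, hk⟩)]
  let φ : Fin k → (Matrix (Fin m) (Fin m) F →ₐ[F] Module.End F (Fin n → F)) :=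
    fun i => (env (P i)).val.comp (e i).symm.toAlgHom
  have hφmem : ∀ i z, φ i z ∈ env (P i) := fun i z => ((e i).symm z).2
  have hφsurj : ∀ i, ∀ r ∈ env (P i), ∃ z, φ i z = r := by
    intro i r hr
    refine ⟨e i ⟨r, hr⟩, ?_⟩
    show ((e i).symm (e i ⟨r, hr⟩) : Module.End F (Fin n → F)) = r
    rw [AlgEquiv.symm_apply_apply]
  have hφinj : ∀ i, Function.Injective (φ i) := fun i x y h => (e i).symm.injective (Subtype.ext h)
  have hc : ∀ i j, i ≠ j → ∀ x y v, φ i x (φ j y v) = φ j y (φ i x v) := by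
    intro i j hij x y v
    exact LinearMap.congr_fun (env_commute (fun x hx y hy => hcomm i j hij x hx y hy) (hφmem i x) (hφmem j y)) v
  obtain ⟨b, hb⟩ := exists_tensor_basis φ hm0 hc (by
    intro W hW
    apply (absIrr_of_env_top henv).1
    rintro _ ⟨g, hg, rfl⟩ _ ⟨w, hw, rfl⟩
    have hst : ∀ w ∈ W, (g : Matrix (Fin n) (Fin n) F) *ᵥ w ∈ W := by
      refine Subgroup.iSup_induction P (C := fun g => ∀ w ∈ W, (g : Matrix (Fin n) (Fin n) F) *ᵥ w ∈ W) hg ?_ ?_ ?_
      · intro j g hg w hw
        obtain ⟨z, hz⟩ := hφsurj j _ (mem_env hg)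
        have := hW j z w hw
        rw [hz] at this
        exact this
      · intro w hw; rw [Units.val_one, Matrix.one_mulVec]; exact hw
      · intro a b ha hb w hw
        rw [Units.val_mul, ← Matrix.mulVec_mulVec]
        exact ha _ (hb w hw)
    exact hst w hw)
  have hcard : Fintype.card (Fin n) = Fintype.card (Fin k → Fin m) := by
    rw [card_eq_of_basis b, Fintype.card_fin]
  let ε : Fin n ≃ (Fin k → Fin m) := Fintype.equivOfCardEq hcard
  obtain ⟨Q, hQ⟩ := exists_GL_basis b ε
  refine ⟨m, ε, Q, hm2, fun g hg => ?_⟩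
  obtain ⟨σ, hσ⟩ := hperm g hg
  -- the automorphisms
  have haut : ∀ i, ∃ a : GL (Fin m) F, ∀ z, cjA g (φ i z) = φ (σ i) ((a : Matrix (Fin m) (Fin m) F) * z *
      ((a⁻¹ : GL (Fin m) F) : Matrix (Fin m) (Fin m) F)) := by
    intro i
    let f : Matrix (Fin m) (Fin m) F →ₐ[F] Matrix (Fin m) (Fin m) F :=
      (e (σ i)).toAlgHom.comp
      { toFun := fun z => (⟨cjA g (φ i z), cjA_env (hσ i) (hφmem i z)⟩ : env (P (σ i)))
        map_one' := Subtype.ext (by
          show cjA g (φ i 1) = 1
          rw [map_one, map_one])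
        map_mul' := fun x y => Subtype.ext (by
          show cjA g (φ i (x * y)) = cjA g (φ i x) * cjA g (φ i y)
          rw [map_mul, map_mul])
        map_zero' := Subtype.ext (by
          show cjA g (φ i 0) = 0
          rw [map_zero, map_zero])
        map_add' := fun x y => Subtype.ext (by
          show cjA g (φ i (x + y)) = cjA g (φ i x) + cjA g (φ i y)
          rw [map_add, map_add])
        commutes' := fun c => Subtype.ext (by
          show cjA g (φ i (algebraMap _ _ c)) = algebraMap _ _ c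
          rw [AlgHom.commutes, AlgEquiv.commutes]) }
    have hfe : ∀ z, φ (σ i) (f z) = cjA g (φ i z) := by
      intro z
      show (((e (σ i)).symm (e (σ i) ⟨cjA g (φ i z), _⟩) : env (P (σ i))) : Module.End F (Fin n → F)) = _
      rw [AlgEquiv.symm_apply_apply]
    have hinj : Function.Injective f := by
      intro x y hxy
      apply hφinj i
      apply (cjA g).injective
      rw [← hfe, ← hfe, hxy]
    have hsurj : Function.Surjective f :=
      (LinearMap.injective_iff_surjective (f := f.toLinearMap)).1 hinj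
    obtain ⟨a, ha⟩ := skolem_noether (AlgEquiv.ofBijective f ⟨hinj, hsurj⟩)
    refine ⟨a, fun z => ?_⟩
    rw [← hfe, ← ha z]
    rfl
  choose a ha using haut
  refine mem_wreath φ b hb ε Q hQ ?_ hk g σ a ha
  intro u hu
  apply centre_top
  intro r
  apply commute_env (P := ⨆ i, P i) _ (by rw [henv]; trivial)
  intro x hx
  refine Subgroup.iSup_induction P
    (C := fun g => u * tl n F (g : Matrix (Fin n) (Fin n) F) = tl n F (g : Matrix (Fin n) (Fin n) F) * u)
    hx ?_ ?_ ?_
  · intro j g hg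
    obtain ⟨z, hz⟩ := hφsurj j _ (mem_env hg)
    rw [← hz]
    exact hu j z
  · rw [Units.val_one, map_one, one_mul, mul_one]
  · intro a b ha hb
    rw [Units.val_mul, map_mul, ← mul_assoc, ha, mul_assoc, hb, mul_assoc]

end Cfsg.Agent.H29.Asc
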