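import Mathlib
import Cfsg.Agent.H29_AscN

set_option autoImplicit false

/-! the minimal normal subgroups modulo scalars of a group of matrices -/

namespace Cfsg.Agent.H29.Asc

open Matrix Module Cfsg.Geo
open scoped commutatorElement

variable {F : Type*} [Field F] {n : ℕ}

theorem scalars_comm {z : GL (Fin n) F} (hz : z ∈ scalars (Fin n) F) (g : GL (Fin n) F) : z * g = g * z := by
  rw [mem_scalars_iff] at hz
  obtain ⟨c, hc⟩ := hz
  apply Units.ext
  rw [Units.val_mul, Units.val_mul, hc, Matrix.smul_mul, Matrix.mul_smul, one_mul, mul_one]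

theorem scalars_le_center : scalars (Fin n) F ≤ Subgroup.center (GL (Fin n) F) := by
  intro z hz
  rw [Subgroup.mem_center_iff]
  exact fun g => (scalars_comm hz g).symm

theorem simple_transfer {Γ : Type*} [Group Γ] (G : Subgroup Γ) (Z : Subgroup Γ) [Z.Normal] (P : Subgroup G)
    (h : IsSimpleGroup (P ⧸ (Z.subgroupOf G).subgroupOf P)) :
    IsSimpleGroup ((P.map G.subtype) ⧸ Z.subgroupOf (P.map G.subtype)) := by
  haveI := h
  let e : P ≃* (P.map G.subtype) := P.equivMapOfInjective G.subtype G.subtype_injective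
  have hmap : ((Z.subgroupOf G).subgroupOf P).map e.toMonoidHom = Z.subgroupOf (P.map G.subtype) := by
    ext ⟨x, hx⟩
    constructor
    · rintro ⟨y, hy, hyx⟩
      rw [Subgroup.mem_subgroupOf]
      have : x = ((y : G) : Γ) := (congrArg Subtype.val hyx).symm
      show x ∈ Z
      rw [this]
      exact hy
    · intro hxz
      rw [Subgroup.mem_subgroupOf] at hxz
      obtain ⟨y, hy, hyx⟩ := hx
      refine ⟨⟨y, hy⟩, ?_, Subtype.ext hyx⟩
      show ((y : G) : Γ) ∈ Z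
      have : ((y : G) : Γ) = x := hyx
      rw [this]; exact hxz
  exact (QuotientGroup.congr _ _ e hmap).symm.isSimpleGroup

theorem gl_main [Finite F] (G : Subgroup (GL (Fin n) F)) (hns : ¬ G ≤ scalars (Fin n) F) :
    ∃ N : Subgroup (GL (Fin n) F), N ≤ G ∧ (∀ g ∈ G, ∀ x ∈ N, g * x * g⁻¹ ∈ N) ∧ ¬ N ≤ scalars (Fin n) F ∧
      (∀ M : Subgroup (GL (Fin n) F), M ≤ N → (∀ g ∈ G, ∀ x ∈ M, g * x * g⁻¹ ∈ M) →
        M ≤ scalars (Fin n) F ∨ N ≤ M ⊔ scalars (Fin n) F) ∧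
      (((∀ x ∈ N, ∀ y ∈ N, ⁅x, y⁆ ∈ scalars (Fin n) F) ∧ ∃ r : ℕ, r.Prime ∧ ∀ x ∈ N, x ^ r ∈ scalars (Fin n) F) ∨
      ∃ (k : ℕ) (P : Fin k → Subgroup (GL (Fin n) F)), 0 < k ∧ (∀ i, P i ≤ N) ∧ (∀ i, ⁅P i, P i⁆ = P i) ∧
        (∀ i, ¬ P i ≤ scalars (Fin n) F) ∧
        (∀ i, IsSimpleGroup (P i ⧸ (scalars (Fin n) F).subgroupOf (P i))) ∧
        (∀ i j, i ≠ j → ∀ x ∈ P i, ∀ y ∈ P j, x * y = y * x) ∧
        (∀ g ∈ G, ∃ σ : Equiv.Perm (Fin k), ∀ i, ∀ x ∈ P i, g * x * g⁻¹ ∈ P (σ i)) ∧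
        (∀ i j, ∃ g ∈ G, ∀ x ∈ P i, g * x * g⁻¹ ∈ P j) ∧ N ≤ (⨆ i, P i) ⊔ scalars (Fin n) F) := by
  classical
  haveI : Finite G := Finite.of_injective (fun g : G => (((g : GL (Fin n) F) : Matrix (Fin n) (Fin n) F)))
    (fun a b h => Subtype.ext (Units.ext h))
  set Z : Subgroup G := (scalars (Fin n) F).subgroupOf G with hZdef
  haveI hZn : Z.Normal := inferInstance
  have hZ : Z ≤ Subgroup.center G := by
    intro z hz
    rw [Subgroup.mem_center_iff]
    intro g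
    apply Subtype.ext
    exact (scalars_comm hz (g : GL (Fin n) F)).symm
  have hne : Z ≠ ⊤ := by
    intro h
    apply hns
    intro x hx
    have : (⟨x, hx⟩ : G) ∈ Z := by rw [h]; trivial
    exact this
  obtain ⟨N, hNn, hZN, hmin, hcase⟩ := GT.main Z hZ hne
  have hmem : ∀ (S : Subgroup G) (x : G), (x : GL (Fin n) F) ∈ S.map G.subtype ↔ x ∈ S := by
    intro S x
    constructor
    · rintro ⟨y, hy, hyx⟩
      have : y = x := Subtype.ext hyx
      rwa [← this]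
    · intro hx; exact ⟨x, hx, rfl⟩
  have hle : ∀ S : Subgroup G, S.map G.subtype ≤ G := fun S => Subgroup.map_subtype_le S
  refine ⟨N.map G.subtype, hle N, ?_, ?_, ?_, ?_⟩
  · rintro g hg _ ⟨x, hx, rfl⟩
    exact ⟨⟨g, hg⟩ * x * ⟨g, hg⟩⁻¹, hNn.conj_mem x hx _, rfl⟩
  · intro h
    obtain ⟨x, hx, hxZ⟩ := Set.exists_of_ssubset hZN
    apply hxZ
    exact h ⟨x, hx, rfl⟩
  · intro M hMN hM
    let M' : Subgroup G := M.subgroupOf G ⊔ Z
    have hMG : M ≤ G := hMN.trans (hle N)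
    have hMn : (M.subgroupOf G).Normal := by
      constructor
      intro x hx g
      exact hM g g.2 x hx
    have h1 : M'.Normal := Subgroup.sup_normal _ _
    have h2 : M' ≤ N := by
      apply sup_le _ hZN.le
      intro x hx
      rw [← hmem N x]
      exact hMN hx
    rcases hmin M' h1 le_sup_right h2 with h | h
    · left
      intro x hx
      have : (⟨x, hMG hx⟩ : G) ∈ M' := Subgroup.mem_sup_left hx
      rw [h] at this
      exact this
    · right
      rintro _ ⟨x, hx, rfl⟩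
      have hx' : x ∈ M' := by rw [h]; exact hx
      have h3 : M'.map G.subtype ≤ M ⊔ scalars (Fin n) F := by
        rw [Subgroup.map_sup]
        apply sup_le_sup
        · rintro _ ⟨y, hy, rfl⟩; exact hy
        · rintro _ ⟨y, hy, rfl⟩; exact hy
      exact h3 ⟨x, hx', rfl⟩
  · rcases hcase with ⟨hab, r, hr, hrp⟩ | ⟨k, P, hk, hPN, hPp, hPZ, hPs, hPc, hPg, hPt, hPt'⟩
    · left
      refine ⟨?_, r, hr, ?_⟩
      · rintro _ ⟨x, hx, rfl⟩ _ ⟨y, hy, rfl⟩
        exact hab x hx y hy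
      · rintro _ ⟨x, hx, rfl⟩
        exact hrp x hx
    · right
      refine ⟨k, fun i => (P i).map G.subtype, hk, ?_, ?_, ?_, ?_, ?_, ?_, ?_, ?_⟩
      · intro i; exact Subgroup.map_mono (hPN i)
      · intro i
        rw [← Subgroup.map_commutator, hPp]
      · intro i h
        apply hPZ i
        intro x hx
        exact h ⟨x, hx, rfl⟩
      · intro i
        exact simple_transfer G (scalars (Fin n) F) (P i) (hPs i)
      · rintro i j hij _ ⟨x, hx, rfl⟩ _ ⟨y, hy, rfl⟩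
        exact congrArg Subtype.val (hPc i j hij x hx y hy)
      · intro g hg
        obtain ⟨σ, hσ⟩ := hPg ⟨g, hg⟩
        refine ⟨σ, ?_⟩
        rintro i _ ⟨x, hx, rfl⟩
        refine ⟨⟨g, hg⟩ * x * ⟨g, hg⟩⁻¹, ?_, rfl⟩
        rw [← hσ i]
        exact ⟨x, hx, rfl⟩
      · intro i j
        obtain ⟨g, hg⟩ := hPt i j
        refine ⟨g, g.2, ?_⟩
        rintro _ ⟨x, hx, rfl⟩
        refine ⟨g * x * g⁻¹, ?_, rfl⟩
        rw [← hg]
        exact ⟨x, hx, rfl⟩
      · rintro _ ⟨x, hx, rfl⟩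
        have h1 := hPt' hx
        have h2 : ((⨆ i, P i) ⊔ Z).map G.subtype ≤ (⨆ i, (P i).map G.subtype) ⊔ scalars (Fin n) F := by
          rw [Subgroup.map_sup, Subgroup.map_iSup]
          apply sup_le_sup_left
          rintro _ ⟨y, hy, rfl⟩; exact hy
        exact h2 ⟨x, h1, rfl⟩

end Cfsg.Agent.H29.Asc
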