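import Mathlib
import Cfsg.Agent.H29_AscE6
import Cfsg.Agent.H29_AscM

set_option autoImplicit false

/-! Aschbacher's theorem for the linear groups -/

namespace Cfsg.Agent.H29.Asc

open Matrix Module Cfsg.Geo Cfsg.Agent.H29.AscF
open scoped commutatorElement

variable {F : Type*} [Field F] {n : ℕ} {G : Subgroup (GL (Fin n) F)}

theorem not_scalar_of_irr (hn : 2 ≤ n) (h : ActsIrreducibly (matrixSet G)) : ¬ G ≤ scalars (Fin n) F := by
  intro hle
  haveI : Nonempty (Fin n) := ⟨⟨0, by omega⟩⟩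
  obtain ⟨v, hv⟩ := exists_ne (0 : Fin n → F)
  rcases h (Submodule.span F {v}) (by
    rintro _ ⟨x, hx, rfl⟩
    obtain ⟨c, hc⟩ := (mem_scalars_iff x).1 (hle hx)
    rw [Submodule.map_span_le]
    rintro w hw
    rw [Set.mem_singleton_iff] at hw
    subst hw
    have : Matrix.toLin' (x : Matrix (Fin n) (Fin n) F) w = (c : F) • w := by
      rw [hc, Matrix.toLin'_apply, Matrix.smul_mulVec, Matrix.one_mulVec]
    show Matrix.toLin' (x : Matrix (Fin n) (Fin n) F) w ∈ _
    rw [this]
    exact Submodule.smul_mem _ _ (Submodule.mem_span_singleton_self w)) with h1 | h1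
  · have : v ∈ Submodule.span F {v} := Submodule.mem_span_singleton_self v
    rw [h1, Submodule.mem_bot] at this
    exact hv this
  · have h2 := finrank_span_singleton (K := F) hv
    rw [h1, finrank_top, Module.finrank_fintype_fun_eq_card, Fintype.card_fin] at h2
    omega

theorem GT_commute {Γ : Type*} [Group Γ] {Z P : Subgroup Γ} (hZ : Z ≤ Subgroup.center Γ) (hP : ⁅P, P⁆ = P) {h : Γ}
    (hc : ∀ x ∈ P, ⁅h, x⁆ ∈ Z) : ∀ x ∈ P, h * x = x * h := GT.commute_of_perfect hZ hP hc

/-- the core of the residual class -/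
theorem core_of_simple [Fintype F] (hn : 2 ≤ n) {P : Subgroup (GL (Fin n) F)} (hPG : P ≤ G)
    (hnorm : ∀ g ∈ G, ∀ x ∈ P, g * x * g⁻¹ ∈ P) (hperf : ⁅P, P⁆ = P)
    (hs : IsSimpleGroup (P ⧸ (scalars (Fin n) F).subgroupOf P)) (hns : ¬ P ≤ scalars (Fin n) F)
    (henv : env P = ⊤)
    (hsub : ∀ (F₀ : Subfield F) (r : ℕ) (P : GL (Fin n) F), r.Prime → Fintype.card F = Nat.card F₀ ^ r →
      ¬ G ≤ subfieldSubgroup F₀ P) : IsResidualCore G P where
  le := hPG
  normal := hnorm
  perfect := hperf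
  simple := hs
  nonabelian := by
    intro hab
    apply hns
    rw [← hperf, Subgroup.commutator_le]
    intro x hx y hy
    have h1 := hab.is_comm.comm ((QuotientGroup.mk (⟨x, hx⟩ : P)) : P ⧸ (scalars (Fin n) F).subgroupOf P)
      (QuotientGroup.mk ⟨y, hy⟩)
    have h2 : (QuotientGroup.mk (⁅(⟨x, hx⟩ : P), ⟨y, hy⟩⁆) : P ⧸ (scalars (Fin n) F).subgroupOf P) = 1 := by
      rw [commutatorElement_def, QuotientGroup.mk_mul, QuotientGroup.mk_mul, QuotientGroup.mk_mul,
        QuotientGroup.mk_inv, QuotientGroup.mk_inv, h1]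
      group
    rw [QuotientGroup.eq_one_iff] at h2
    exact h2
  centralizer_scalar := by
    intro h hh hc
    apply scalar_of_commute (by omega) henv
    exact GT_commute scalars_le_center hperf (fun x hx => hc x hx)
  absIrred := absIrr_of_env_top henv
  no_subfield := by
    intro F₀ hF₀ hreal
    obtain ⟨F₁, r, Q, hr, hcard, hle⟩ := subfield_class (by omega) henv hF₀ hreal
    exact hsub F₁ r Q hr hcard (fun g hg => hle g (hnorm g hg))

theorem mem_normalizer {R : Subgroup (GL (Fin n) F)} (hnorm : ∀ g ∈ G, ∀ x ∈ R, g * x * g⁻¹ ∈ R) :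
    G ≤ subgroupNormalizer R := by
  intro g hg
  show g ∈ Subgroup.normalizer (R : Set (GL (Fin n) F))
  rw [Subgroup.mem_normalizer_iff]
  intro x
  constructor
  · exact hnorm g hg x
  · intro hx
    have := hnorm g⁻¹ (G.inv_mem hg) _ hx
    have e : g⁻¹ * (g * x * g⁻¹) * g⁻¹⁻¹ = x := by group
    rwa [e] at this

/-- **Aschbacher's theorem** for linear groups, main part. -/
theorem NonGeom.residual [Fintype F] (hn : 3 ≤ n) (hG : NonGeom G) : InLinearResidualClass G := by
  have hn0 : 0 < n := by omega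
  haveI : Nonempty (Fin n) := ⟨⟨0, hn0⟩⟩
  obtain ⟨N, hNG, hNn, hNs, hmin, hcase⟩ := gl_main G (not_scalar_of_irr (by omega) hG.irr)
  rcases hcase with ⟨hab, r, hr, hpow⟩ | ⟨k, P, hk, hPN, hPp, hPZ, hPs, hPc, hPg, hPt, hPt'⟩
  · exfalso
    have henv : env N = ⊤ := (hG.dichotomy hn0 hNn).resolve_left hNs
    have hST := ST.of_minimal hr hNn hab hpow henv hmin
    obtain ⟨R, hR⟩ := hST.exists_SR hn
    have hRn : ∀ g ∈ G, ∀ x ∈ R, g * x * g⁻¹ ∈ R := fun g hg x hx => hR.normR hg hx
    have habs := absIrr_of_env_top hR.envR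
    rcases hR.cases hn with h | ⟨F₀, hF₀, h⟩ | ⟨σ, f, hf, h⟩ | ⟨f, hf, h⟩ | ⟨Q, hQ, h2, h⟩
    · obtain ⟨m, hm⟩ := hST.dim hn0
      exact hG.sty r m R hm h (mem_normalizer hRn)
    · obtain ⟨F₁, r', Q, hr', hcard, hle⟩ := subfield_class hn0 hR.envR hF₀ h
      exact hG.sub F₁ r' Q hr' hcard (fun g hg => hle g (hRn g hg))
    · exact hG.un σ f hf (fun g hg => unitary_similar habs hf h (hRn g hg))
    · exact hG.sp f hf (fun g hg => symp_similar habs hf.bilinear hf.nondegenerate h (hRn g hg))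
    · exact hG.qu Q hQ (odd_card_of_two_ne h2) (fun g hg => quad_similar h2 habs hQ h (hRn g hg))
  · have hnorm : ∀ g ∈ G, ∀ x ∈ (⨆ i, P i), g * x * g⁻¹ ∈ (⨆ i, P i) := by
      intro g hg x hx
      obtain ⟨σ, hσ⟩ := hPg g hg
      refine Subgroup.iSup_induction P (C := fun x => g * x * g⁻¹ ∈ (⨆ i, P i)) hx ?_ ?_ ?_
      · intro i x hx
        exact Subgroup.mem_iSup_of_mem (σ i) (hσ i x hx)
      · rw [mul_one, mul_inv_cancel]; exact Subgroup.one_mem _
      · intro a b ha hb
        have : g * (a * b) * g⁻¹ = (g * a * g⁻¹) * (g * b * g⁻¹) := by group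
        rw [this]; exact Subgroup.mul_mem _ ha hb
    have henv : env (⨆ i, P i) = ⊤ := by
      refine (hG.dichotomy hn0 hnorm).resolve_left ?_
      intro h
      exact hPZ ⟨0, hk⟩ ((le_iSup P _).trans h)
    by_cases hk1 : k = 1
    · subst hk1
      have hP0 : (⨆ i, P i) = P 0 := by
        apply le_antisymm
        · apply iSup_le
          intro i
          rw [Subsingleton.elim i 0]
        · exact le_iSup P 0
      rw [hP0] at henv hnorm
      refine ⟨P 0, core_of_simple (by omega) ((hPN 0).trans hNG) hnorm (hPp 0) (hPs 0) (hPZ 0) henv hG.sub, ?_, ?_, ?_⟩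
      · rintro ⟨Q, hQ, hfix⟩
        have habs := absIrr_of_env_top henv
        by_cases h2 : (2 : F) = 0
        · have hs := polar_symp h2 hQ
          exact hG.sp _ hs (fun g hg => symp_similar habs hs.bilinear hs.nondegenerate (polar_fixes hfix) (hnorm g hg))
        · exact hG.qu Q hQ (odd_card_of_two_ne h2) (fun g hg => quad_similar h2 habs hQ hfix (hnorm g hg))
      · rintro ⟨f, hf, hfix⟩
        exact hG.sp f hf (fun g hg => symp_similar (absIrr_of_env_top henv) hf.bilinear hf.nondegenerate hfix (hnorm g hg))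
      · rintro ⟨σ, f, hf, hfix⟩
        exact hG.un σ f hf (fun g hg => unitary_similar (absIrr_of_env_top henv) hf hfix (hnorm g hg))
    · exfalso
      obtain ⟨m, e, Q, hm, hle⟩ := tensor_power hn0 hk P hPc henv hPZ G hPg (fun i j => by
        obtain ⟨g, -, hg⟩ := hPt i j
        exact ⟨g, hg⟩)
      rcases Nat.eq_or_lt_of_le hm with h | h
      · subst h
        exact hG.wr2 hk e Q hle
      · exact hG.wr m k e Q h (by omega) hle

end Cfsg.Agent.H29.Asc
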