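import Mathlib
import Cfsg.Agent.H29_AscR
import Cfsg.Agent.H29_Trv2

set_option autoImplicit false

/-! reflexive sesquilinear forms, adjoints -/

namespace Cfsg.Agent.H29.Fm

open Matrix Module Cfsg.Geo Cfsg.Agent.H29.Asc Cfsg.Agent.H29.AscF Cfsg.Agent.H29.Trv

variable {F : Type*} [Field F] {n : ℕ}

/-- nondegenerate reflexive sesquilinear forms -/
structure SFm (τ : F ≃+* F) (ε : F) (f : (Fin n → F) → (Fin n → F) → F) : Prop where
  eps : ε = 1 ∨ ε = -1
  inv : ∀ a, τ (τ a) = a
  add_left : ∀ x y v, f (x + y) v = f x v + f y v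
  smul_left : ∀ (c : F) x v, f (c • x) v = c * f x v
  herm : ∀ u v, f u v = ε * τ (f v u)
  nd : ∀ v, v ≠ 0 → ∃ x, f x v ≠ 0

variable {τ : F ≃+* F} {ε : F} {f : (Fin n → F) → (Fin n → F) → F}

theorem SFm.eps0 (h : SFm τ ε f) : ε ≠ 0 := by
  rcases h.eps with rfl | rfl
  · exact one_ne_zero
  · exact neg_ne_zero.2 one_ne_zero

theorem SFm.tau_eps (h : SFm τ ε f) : τ ε = ε := by
  rcases h.eps with rfl | rfl
  · exact map_one τ
  · rw [map_neg, map_one]

theorem SFm.eps_sq (h : SFm τ ε f) : ε * ε = 1 := by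
  rcases h.eps with rfl | rfl
  · exact one_mul 1
  · rw [neg_mul_neg, one_mul]

theorem SFm.add_right (h : SFm τ ε f) (v x y : Fin n → F) : f v (x + y) = f v x + f v y := by
  rw [h.herm, h.add_left, map_add, mul_add, ← h.herm, ← h.herm]

theorem SFm.smul_right (h : SFm τ ε f) (c : F) (v x : Fin n → F) : f v (c • x) = τ c * f v x := by
  rw [h.herm, h.smul_left, map_mul, h.herm v x]
  ring

theorem SFm.zero_left (h : SFm τ ε f) (v : Fin n → F) : f 0 v = 0 := by
  have := h.smul_left 0 0 v
  rwa [zero_smul, zero_mul] at this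

theorem SFm.zero_right (h : SFm τ ε f) (v : Fin n → F) : f v 0 = 0 := by
  rw [h.herm, h.zero_left, map_zero, mul_zero]

theorem SFm.neg_left (h : SFm τ ε f) (u v : Fin n → F) : f (-u) v = - f u v := by
  have := h.smul_left (-1) u v
  rwa [neg_one_smul, neg_one_mul] at this

theorem SFm.sub_left (h : SFm τ ε f) (u w v : Fin n → F) : f (u - w) v = f u v - f w v := by
  rw [sub_eq_add_neg, h.add_left, h.neg_left, ← sub_eq_add_neg]

theorem SFm.neg_right (h : SFm τ ε f) (u v : Fin n → F) : f u (-v) = - f u v := by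
  have := h.smul_right (-1) u v
  rwa [neg_one_smul, map_neg, map_one, neg_one_mul] at this

theorem SFm.sub_right (h : SFm τ ε f) (u v w : Fin n → F) : f u (v - w) = f u v - f u w := by
  rw [sub_eq_add_neg, h.add_right, h.neg_right, ← sub_eq_add_neg]

theorem SFm.comm_zero (h : SFm τ ε f) {u v : Fin n → F} (huv : f u v = 0) : f v u = 0 := by
  rw [h.herm, huv, map_zero, mul_zero]

theorem SFm.nd' (h : SFm τ ε f) (v : Fin n → F) (hv : v ≠ 0) : ∃ x, f v x ≠ 0 := by
  obtain ⟨x, hx⟩ := h.nd v hv
  exact ⟨x, fun h0 => hx (h.comm_zero h0)⟩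

theorem SFm.ext_right (h : SFm τ ε f) {v w : Fin n → F} (H : ∀ u, f u v = f u w) : v = w := by
  by_contra hne
  obtain ⟨x, hx⟩ := h.nd (v - w) (sub_ne_zero.2 hne)
  apply hx
  rw [h.sub_right, H, sub_self]

theorem SFm.ext_left (h : SFm τ ε f) {v w : Fin n → F} (H : ∀ u, f v u = f w u) : v = w := by
  by_contra hne
  obtain ⟨x, hx⟩ := h.nd' (v - w) (sub_ne_zero.2 hne)
  apply hx
  rw [h.sub_left, H, sub_self]

theorem SFm.isNondeg (h : SFm τ ε f) : IsNondegenerateForm f := fun v hv => ⟨h.nd v hv, h.nd' v hv⟩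

theorem SFm.sum_left (h : SFm τ ε f) {α : Type*} (s : Finset α) (u : α → (Fin n → F)) (v : Fin n → F) :
    f (∑ i ∈ s, u i) v = ∑ i ∈ s, f (u i) v := by
  classical
  induction s using Finset.induction_on with
  | empty => simp [h.zero_left]
  | insert a s ha ih => rw [Finset.sum_insert ha, Finset.sum_insert ha, h.add_left, ih]

theorem SFm.sum_right (h : SFm τ ε f) {α : Type*} (s : Finset α) (u : α → (Fin n → F)) (v : Fin n → F) :
    f v (∑ i ∈ s, u i) = ∑ i ∈ s, f v (u i) := by
  classical
  induction s using Finset.induction_on with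
  | empty => simp [h.zero_right]
  | insert a s ha ih => rw [Finset.sum_insert ha, Finset.sum_insert ha, h.add_right, ih]

theorem SFm.of_unitary {σ : F ≃+* F} (h : IsUnitaryForm σ f) : SFm σ 1 f where
  eps := Or.inl rfl
  inv := h.involutive
  add_left := h.add_left
  smul_left := h.smul_left
  herm := fun u v => by rw [one_mul]; exact h.herm u v
  nd := fun v hv => (h.nondegenerate v hv).1

theorem SFm.of_symp (h : IsSymplecticForm f) : SFm (RingEquiv.refl F) (-1) f where
  eps := Or.inr rfl
  inv := fun _ => rfl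
  add_left := h.bilinear.add_left
  smul_left := h.bilinear.smul_left
  herm := fun u v => by rw [h.skew]; simp
  nd := fun v hv => (h.nondegenerate v hv).1

theorem SFm.of_symm (h : IsSymmetricForm f) : SFm (RingEquiv.refl F) 1 f where
  eps := Or.inl rfl
  inv := fun _ => rfl
  add_left := h.bilinear.add_left
  smul_left := h.bilinear.smul_left
  herm := fun u v => by rw [one_mul]; exact h.symm u v
  nd := fun v hv => (h.nondegenerate v hv).1

/-- adjointness of operators -/
def Adj (f : (Fin n → F) → (Fin n → F) → F) (x x' : Module.End F (Fin n → F)) : Prop :=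
  ∀ u v, f (x u) v = f u (x' v)

theorem Adj.symm (h : SFm τ ε f) {x x' : Module.End F (Fin n → F)} (hx : Adj f x x') : Adj f x' x := by
  intro u v
  rw [h.herm, ← hx, ← h.herm]

theorem Adj.unique (h : SFm τ ε f) {x y z : Module.End F (Fin n → F)} (hy : Adj f x y) (hz : Adj f x z) : y = z := by
  apply LinearMap.ext
  intro v
  apply h.ext_right
  intro u
  rw [← hy, ← hz]

theorem Adj.mul {x x' y y' : Module.End F (Fin n → F)} (hx : Adj f x x') (hy : Adj f y y') :
    Adj f (x * y) (y' * x') := by
  intro u v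
  show f (x (y u)) v = f u (y' (x' v))
  rw [hx, hy]

theorem Adj.add (h : SFm τ ε f) {x x' y y' : Module.End F (Fin n → F)} (hx : Adj f x x') (hy : Adj f y y') :
    Adj f (x + y) (x' + y') := by
  intro u v
  rw [LinearMap.add_apply, LinearMap.add_apply, h.add_left, h.add_right, hx, hy]

theorem Adj.smul (h : SFm τ ε f) {x x' : Module.End F (Fin n → F)} (c : F) (hx : Adj f x x') :
    Adj f (c • x) (τ c • x') := by
  intro u v
  rw [LinearMap.smul_apply, LinearMap.smul_apply, h.smul_left, h.smul_right, h.inv, hx]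

theorem Adj.one : Adj f 1 1 := fun _ _ => rfl

theorem Adj.zero (h : SFm τ ε f) : Adj f 0 0 := fun u v => by
  rw [LinearMap.zero_apply, LinearMap.zero_apply, h.zero_left, h.zero_right]

theorem Adj.sum (h : SFm τ ε f) {α : Type*} (s : Finset α) {x x' : α → Module.End F (Fin n → F)}
    (hx : ∀ i ∈ s, Adj f (x i) (x' i)) : Adj f (∑ i ∈ s, x i) (∑ i ∈ s, x' i) := by
  classical
  induction s using Finset.induction_on with
  | empty => simpa using Adj.zero h
  | insert a s ha ih =>
    rw [Finset.sum_insert ha, Finset.sum_insert ha]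
    exact Adj.add h (hx a (Finset.mem_insert_self _ _)) (ih (fun i hi => hx i (Finset.mem_insert_of_mem hi)))

/-- `G` consists of isometries -/
def Fx (f : (Fin n → F) → (Fin n → F) → F) (G : Subgroup (GL (Fin n) F)) : Prop :=
  ∀ g ∈ G, ∀ u v, f ((g : Matrix (Fin n) (Fin n) F) *ᵥ u) ((g : Matrix (Fin n) (Fin n) F) *ᵥ v) = f u v

theorem Fx.mono {G H : Subgroup (GL (Fin n) F)} (hG : Fx f G) (h : H ≤ G) : Fx f H := fun g hg => hG g (h hg)

theorem Adj.group {G : Subgroup (GL (Fin n) F)} (hG : Fx f G) {g : GL (Fin n) F} (hg : g ∈ G) :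
    Adj f (tl n F (g : Matrix (Fin n) (Fin n) F)) (tl n F ((g⁻¹ : GL (Fin n) F) : Matrix (Fin n) (Fin n) F)) := by
  intro u v
  have h1 := hG g hg u (((g⁻¹ : GL (Fin n) F) : Matrix (Fin n) (Fin n) F) *ᵥ v)
  rw [Matrix.mulVec_mulVec, ← Units.val_mul, mul_inv_cancel, Units.val_one, Matrix.one_mulVec] at h1
  exact h1

/-- sets of operators closed under adjoints -/
def AClosed (f : (Fin n → F) → (Fin n → F) → F) (R : Subalgebra F (Module.End F (Fin n → F))) : Prop :=
  ∀ r ∈ R, ∃ r' ∈ R, Adj f r r'

theorem env_closed (h : SFm τ ε f) {G : Subgroup (GL (Fin n) F)} (hG : Fx f G) : AClosed f (env G) := by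
  intro r hr
  induction hr using Algebra.adjoin_induction with
  | mem r hr =>
    obtain ⟨_, ⟨x, hx, rfl⟩, rfl⟩ := hr
    exact ⟨_, mem_env (G.inv_mem hx), Adj.group hG hx⟩
  | algebraMap c =>
    refine ⟨algebraMap _ _ (τ c), Subalgebra.algebraMap_mem _ _, ?_⟩
    rw [Algebra.algebraMap_eq_smul_one, Algebra.algebraMap_eq_smul_one]
    exact Adj.smul h c Adj.one
  | add x y _ _ hx hy =>
    obtain ⟨x', hx1, hx2⟩ := hx
    obtain ⟨y', hy1, hy2⟩ := hy
    exact ⟨x' + y', Subalgebra.add_mem _ hx1 hy1, Adj.add h hx2 hy2⟩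
  | mul x y _ _ hx hy =>
    obtain ⟨x', hx1, hx2⟩ := hx
    obtain ⟨y', hy1, hy2⟩ := hy
    exact ⟨y' * x', Subalgebra.mul_mem _ hy1 hx1, Adj.mul hx2 hy2⟩

/-- the centre of a subalgebra, as a subalgebra of operators -/
noncomputable def cen (R : Subalgebra F (Module.End F (Fin n → F))) : Subalgebra F (Module.End F (Fin n → F)) :=
  (Subalgebra.center F R).map R.val

theorem mem_cen {R : Subalgebra F (Module.End F (Fin n → F))} {z : Module.End F (Fin n → F)} :
    z ∈ cen R ↔ z ∈ R ∧ ∀ r ∈ R, z * r = r * z := by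
  constructor
  · rintro ⟨y, hy, rfl⟩
    refine ⟨y.2, fun r hr => ?_⟩
    have := (Subalgebra.mem_center_iff.1 hy) ⟨r, hr⟩
    exact (congrArg Subtype.val this).symm
  · rintro ⟨hz, hzc⟩
    refine ⟨⟨z, hz⟩, ?_, rfl⟩
    refine Subalgebra.mem_center_iff.2 fun r => ?_
    exact Subtype.ext (hzc r r.2).symm

theorem cen_comm {R : Subalgebra F (Module.End F (Fin n → F))} : ∀ x ∈ cen R, ∀ y ∈ cen R, x * y = y * x :=
  fun _ hx _ hy => (mem_cen.1 hx).2 _ (mem_cen.1 hy).1

theorem cen_closed (h : SFm τ ε f) {R : Subalgebra F (Module.End F (Fin n → F))} (hR : AClosed f R) :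
    AClosed f (cen R) := by
  intro z hz
  obtain ⟨hz1, hz2⟩ := mem_cen.1 hz
  obtain ⟨z', hz', hadj⟩ := hR z hz1
  refine ⟨z', mem_cen.2 ⟨hz', fun r hr => ?_⟩, hadj⟩
  obtain ⟨s, hs, hrs⟩ := hR r hr
  have h1 : Adj f (z * s) (r * z') := Adj.mul hadj (Adj.symm h hrs)
  have h2 : Adj f (s * z) (z' * r) := Adj.mul (Adj.symm h hrs) hadj
  rw [hz2 s hs] at h1
  exact Adj.unique h h2 h1

theorem cen_cjA {R : Subalgebra F (Module.End F (Fin n → F))} {g : GL (Fin n) F}
    (hg : Clifford.Normalises R (Clifford.glEquiv g)) {x : Module.End F (Fin n → F)} (hx : x ∈ cen R) :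
    cjA g x ∈ cen R := by
  rw [mem_cen] at hx ⊢
  obtain ⟨h1, h2⟩ := normalises_iff.1 hg
  refine ⟨h2 x hx.1, fun r hr => ?_⟩
  have h3 := hx.2 _ (h1 r hr)
  have h4 := congrArg (cjA g) h3
  rwa [map_mul, map_mul, AlgEquiv.apply_symm_apply] at h4

/-! ### orthogonal subspaces -/

/-- the orthogonal space -/
def perp (h : SFm τ ε f) (W : Submodule F (Fin n → F)) : Submodule F (Fin n → F) where
  carrier := {v | ∀ w ∈ W, f v w = 0}
  zero_mem' := fun w _ => h.zero_left w
  add_mem' := fun {x y} hx hy w hw => by rw [h.add_left, hx w hw, hy w hw, add_zero]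
  smul_mem' := fun c x hx w hw => by rw [h.smul_left, hx w hw, mul_zero]

theorem mem_perp (h : SFm τ ε f) {W : Submodule F (Fin n → F)} {v : Fin n → F} :
    v ∈ perp h W ↔ ∀ w ∈ W, f v w = 0 := Iff.rfl

theorem finrank_perp (h : SFm τ ε f) (W : Submodule F (Fin n → F)) :
    finrank F W + finrank F (perp h W) = n := by
  classical
  let b := Module.finBasis F W
  let L : (Fin n → F) →ₗ[F] (Fin (finrank F W) → F) :=
    { toFun := fun v i => f v (b i)
      map_add' := fun x y => by funext i; exact h.add_left x y _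
      map_smul' := fun c x => by funext i; exact h.smul_left c x _ }
  have hker : LinearMap.ker L = perp h W := by
    ext v
    rw [LinearMap.mem_ker, mem_perp]
    constructor
    · intro hv w hw
      have h1 := b.sum_repr ⟨w, hw⟩
      have h2 : w = ∑ i, (b.repr ⟨w, hw⟩ i) • (b i : Fin n → F) := by
        have := congrArg Subtype.val h1
        simp only [Submodule.coe_sum, Submodule.coe_smul] at this
        exact this.symm
      rw [h2, h.sum_right]
      apply Finset.sum_eq_zero
      intro i _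
      rw [h.smul_right]
      have : f v (b i) = 0 := congrFun hv i
      rw [this, mul_zero]
    · intro hv
      funext i
      exact hv _ (b i).2
  have hsurj : LinearMap.range L = ⊤ := by
    by_contra hne
    obtain ⟨ψ, hψ0, hψ⟩ := Submodule.exists_le_ker_of_lt_top _ (lt_top_iff_ne_top.2 hne)
    let c : Fin (finrank F W) → F := fun i => τ (ψ (Pi.single i 1))
    have h1 : ∀ v, f v (∑ i, c i • (b i : Fin n → F)) = 0 := by
      intro v
      rw [h.sum_right]
      have h2 : ψ (L v) = 0 := hψ ⟨v, rfl⟩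
      have h3 : L v = ∑ i, f v (b i) • (Pi.single i (1 : F) : Fin (finrank F W) → F) := by
        conv_lhs => rw [pi_eq_sum_univ' (L v)]
        rfl
      rw [h3, map_sum] at h2
      rw [← h2]
      apply Finset.sum_congr rfl
      intro i _
      rw [h.smul_right, map_smul, smul_eq_mul]
      show τ (τ _) * _ = _
      rw [h.inv, mul_comm]
    have h2 : (∑ i, c i • (b i : Fin n → F)) = 0 := by
      by_contra h0
      obtain ⟨x, hx⟩ := h.nd _ h0
      exact hx (h1 x)
    have h3 : ∑ i, c i • b i = 0 := by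
      apply Subtype.ext
      rw [Submodule.coe_sum]
      simp only [Submodule.coe_smul]
      exact h2
    have h4 := (Fintype.linearIndependent_iff.1 b.linearIndependent) c h3
    apply hψ0
    apply LinearMap.pi_ext'
    intro i
    apply LinearMap.ext_ring
    have h5 : τ (ψ (Pi.single i 1)) = 0 := h4 i
    have h6 := (map_eq_zero τ).1 h5
    simpa using h6
  have h1 := LinearMap.finrank_range_add_finrank_ker L
  rw [hker, hsurj, finrank_top, Module.finrank_fintype_fun_eq_card, Module.finrank_fintype_fun_eq_card,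
    Fintype.card_fin, Fintype.card_fin] at h1
  exact h1

theorem le_perp_perp (h : SFm τ ε f) (W : Submodule F (Fin n → F)) : W ≤ perp h (perp h W) := by
  intro w hw v hv
  exact h.comm_zero (hv w hw)

theorem perp_perp (h : SFm τ ε f) (W : Submodule F (Fin n → F)) : perp h (perp h W) = W := by
  symm
  apply Submodule.eq_of_le_of_finrank_eq (le_perp_perp h W)
  have h1 := finrank_perp h W
  have h2 := finrank_perp h (perp h W)
  omega

theorem perp_stable (h : SFm τ ε f) {G : Subgroup (GL (Fin n) F)} (hG : Fx f G) {W : Submodule F (Fin n → F)}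
    (hW : G ≤ subspaceStabilizer W) : G ≤ subspaceStabilizer (perp h W) := by
  intro g hg
  rw [mem_stab_iff]
  intro v hv w hw
  have h1 := (mem_stab_iff _ _).1 (hW (G.inv_mem hg)) w hw
  have h2 := hG g hg v (((g⁻¹ : GL (Fin n) F) : Matrix (Fin n) (Fin n) F) *ᵥ w)
  rw [Matrix.mulVec_mulVec, ← Units.val_mul, mul_inv_cancel, Units.val_one, Matrix.one_mulVec] at h2
  rw [h2]
  exact hv _ h1

/-- reducible groups of isometries -/
theorem reducible_cases (h : SFm τ ε f) {G : Subgroup (GL (Fin n) F)} (hG : Fx f G)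
    (hirr : ¬ ActsIrreducibly (matrixSet G)) :
    (∃ W : Submodule F (Fin n → F), W ≠ ⊥ ∧ IsTotallySingularFor f W ∧ G ≤ subspaceStabilizer W) ∨
    (∃ W : Submodule F (Fin n → F), W ≠ ⊥ ∧ IsNondegenerateOn f W ∧ 2 * finrank F W < n ∧
      G ≤ subspaceStabilizer W) ∨
    (∃ (k : ℕ) (D : Fin 2 → Submodule F (Fin n → F)), IsNondegenerateMDecomposition f k D ∧ 2 * k = n ∧
      G ≤ decompositionStabilizer D) := by
  classical
  unfold ActsIrreducibly at hirr
  push Not at hirr
  obtain ⟨W, hW, hW0, hW1⟩ := hirr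
  have hst : G ≤ subspaceStabilizer W := by
    intro g hg
    rw [mem_stab_iff]
    intro w hw
    exact hW _ ⟨g, hg, rfl⟩ ⟨w, hw, rfl⟩
  have hst' := perp_stable h hG hst
  by_cases hU : W ⊓ perp h W = ⊥
  · right
    have hnd : ∀ W : Submodule F (Fin n → F), W ⊓ perp h W = ⊥ → IsNondegenerateOn f W := by
      intro W hU w hw hw0
      have h1 : ∃ x ∈ W, f w x ≠ 0 := by
        by_contra hcon
        push Not at hcon
        apply hw0
        have : w ∈ W ⊓ perp h W := ⟨hw, hcon⟩
        rwa [hU, Submodule.mem_bot] at this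
      obtain ⟨x, hx, hwx⟩ := h1
      exact ⟨⟨x, hx, fun h0 => hwx (h.comm_zero h0)⟩, ⟨x, hx, hwx⟩⟩
    have hU' : perp h W ⊓ perp h (perp h W) = ⊥ := by rw [perp_perp, inf_comm]; exact hU
    have hfr := finrank_perp h W
    rcases lt_trichotomy (finrank F W) (finrank F (perp h W)) with hlt | heq | hlt
    · left
      exact ⟨W, hW0, hnd W hU, by omega, hst⟩
    · right
      refine ⟨finrank F W, ![W, perp h W], ⟨⟨le_refl _, ?_, ?_, ?_, ?_⟩, ?_, ?_⟩, by omega, ?_⟩
      · rw [Nat.pos_iff_ne_zero]
        intro h0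
        exact hW0 (Submodule.finrank_eq_zero.1 h0)
      · intro i
        fin_cases i
        · rfl
        · exact heq.symm
      · rw [iSupIndep_def]
        intro i
        fin_cases i
        · show Disjoint W _
          have : (⨆ j, ⨆ (_ : j ≠ (0 : Fin 2)), (![W, perp h W] : Fin 2 → Submodule F (Fin n → F)) j) ≤ perp h W := by
            apply iSup_le; intro j
            apply iSup_le; intro hj
            fin_cases j
            · exact absurd rfl hj
            · exact le_refl _
          exact (disjoint_iff.2 hU).mono_right this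
        · show Disjoint (perp h W) _
          have : (⨆ j, ⨆ (_ : j ≠ (1 : Fin 2)), (![W, perp h W] : Fin 2 → Submodule F (Fin n → F)) j) ≤ W := by
            apply iSup_le; intro j
            apply iSup_le; intro hj
            fin_cases j
            · exact le_refl _
            · exact absurd rfl hj
          exact (disjoint_iff.2 hU).symm.mono_right this
      · have h1 : W ⊔ perp h W = ⊤ := by
          apply Submodule.eq_top_of_finrank_eq
          have h2 := Submodule.finrank_sup_add_finrank_inf_eq W (perp h W)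
          rw [hU, finrank_bot, Module.finrank_fintype_fun_eq_card, Fintype.card_fin] at *
          omega
        rw [eq_top_iff, ← h1]
        apply sup_le
        · exact le_iSup (![W, perp h W] : Fin 2 → Submodule F (Fin n → F)) 0
        · exact le_iSup (![W, perp h W] : Fin 2 → Submodule F (Fin n → F)) 1
      · intro i
        fin_cases i
        · exact hnd W hU
        · exact hnd _ hU'
      · intro i j hij
        fin_cases i <;> fin_cases j
        · exact absurd rfl hij
        · intro u hu v hv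
          exact h.comm_zero (hv u hu)
        · intro u hu v hv
          exact hu v hv
        · exact absurd rfl hij
      · intro g hg
        refine ⟨1, fun i => ?_⟩
        have key : ∀ U : Submodule F (Fin n → F), G ≤ subspaceStabilizer U →
            U.map (Matrix.toLin' (g : Matrix (Fin n) (Fin n) F)) = U := by
          intro U hU
          apply le_antisymm
          · rintro _ ⟨w, hw, rfl⟩
            exact (mem_stab_iff _ _).1 (hU hg) w hw
          · intro w hw
            refine ⟨((g⁻¹ : GL (Fin n) F) : Matrix (Fin n) (Fin n) F) *ᵥ w, (mem_stab_iff _ _).1 (hU (G.inv_mem hg)) w hw, ?_⟩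
            rw [Matrix.toLin'_apply, Matrix.mulVec_mulVec, ← Units.val_mul, mul_inv_cancel, Units.val_one, Matrix.one_mulVec]
        fin_cases i
        · exact key W hst
        · exact key _ hst'
    · left
      refine ⟨perp h W, ?_, hnd _ hU', by omega, hst'⟩
      intro h0
      rw [h0, finrank_bot] at hfr
      apply hW1
      apply Submodule.eq_top_of_finrank_eq
      rw [Module.finrank_fintype_fun_eq_card, Fintype.card_fin]
      omega
  · left
    refine ⟨W ⊓ perp h W, hU, ?_, ?_⟩
    · rintro u ⟨hu, hu'⟩ v ⟨hv, hv'⟩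
      exact hu' v hv
    · intro g hg
      rw [mem_stab_iff]
      rintro w ⟨hw, hw'⟩
      exact ⟨(mem_stab_iff _ _).1 (hst hg) w hw, (mem_stab_iff _ _).1 (hst' hg) w hw'⟩

end Cfsg.Agent.H29.Fm
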