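import Mathlib
import Cfsg.Agent.H29_Fm1

set_option autoImplicit false

/-! primitive idempotents and decompositions -/

namespace Cfsg.Agent.H29.Fm

open Matrix Module Cfsg.Geo Cfsg.Agent.H29.Asc Cfsg.Agent.H29.AscF Cfsg.Agent.H29.Trv

variable {F : Type*} [Field F] {n : ℕ}

/-- primitive idempotents of a subring -/
def PI (S : Subring (Module.End F (Fin n → F))) : Set (Module.End F (Fin n → F)) :=
  {e | e ∈ S ∧ e * e = e ∧ e ≠ 0 ∧ ∀ d ∈ S, d * d = d → e * d = d → d = 0 ∨ d = e}

theorem PI.orth {S : Subring (Module.End F (Fin n → F))} (hS : ∀ x ∈ S, ∀ y ∈ S, x * y = y * x)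
    {e d : Module.End F (Fin n → F)} (he : e ∈ PI S) (hd : d ∈ PI S) (hne : e ≠ d) : e * d = 0 := by
  obtain ⟨he1, he2, he3, he4⟩ := he
  obtain ⟨hd1, hd2, hd3, hd4⟩ := hd
  have hc := hS e he1 d hd1
  have hi : (e * d) * (e * d) = e * d := by
    calc (e * d) * (e * d) = e * (d * e) * d := by simp only [mul_assoc]
      _ = (e * e) * (d * d) := by rw [← hc]; simp only [mul_assoc]
      _ = e * d := by rw [he2, hd2]
  rcases he4 (e * d) (S.mul_mem he1 hd1) hi (by rw [← mul_assoc, he2]) with h | h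
  · exact h
  rcases hd4 (e * d) (S.mul_mem he1 hd1) hi (by rw [hc, ← mul_assoc, hd2]) with h' | h'
  · exact h'
  · exact absurd (h.symm.trans h') hne

theorem PI.exists_le {S : Subring (Module.End F (Fin n → F))} (hS : ∀ x ∈ S, ∀ y ∈ S, x * y = y * x)
    {d : Module.End F (Fin n → F)} (hd : d ∈ S) (hdd : d * d = d) (hd0 : d ≠ 0) : ∃ e ∈ PI S, d * e = e := by
  classical
  let P : ℕ → Prop := fun k => ∃ e ∈ S, e * e = e ∧ e ≠ 0 ∧ d * e = e ∧ finrank F (LinearMap.range e) = k
  have hP : ∃ k, P k := ⟨_, d, hd, hdd, hd0, hdd, rfl⟩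
  obtain ⟨e, he1, he2, he3, he4, he5⟩ := Nat.find_spec hP
  refine ⟨e, ⟨he1, he2, he3, ?_⟩, he4⟩
  intro c hc hcc hec
  by_cases hc0 : c = 0
  · exact Or.inl hc0
  right
  have h1 : Nat.find hP ≤ finrank F (LinearMap.range c) :=
    Nat.find_min' hP ⟨c, hc, hcc, hc0, by rw [← hec, ← mul_assoc, he4], rfl⟩
  rw [← he5] at h1
  have h2 : LinearMap.range c ≤ LinearMap.range e := by
    rintro _ ⟨v, rfl⟩
    exact ⟨c v, LinearMap.congr_fun hec v⟩
  have h3 := Submodule.eq_of_le_of_finrank_le h2 h1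
  have h4 : c * e = e := by
    apply LinearMap.ext
    intro v
    have h5 : e v ∈ LinearMap.range c := by rw [h3]; exact ⟨v, rfl⟩
    obtain ⟨w, hw⟩ := h5
    show c (e v) = e v
    rw [← hw]
    exact LinearMap.congr_fun hcc w
  rw [← hec, ← hS c hc e he1, h4]

theorem finite_end [Finite F] : Finite (Module.End F (Fin n → F)) := Module.finite_of_finite F

/-- enumeration of the primitive idempotents -/
theorem PI.enum [Finite F] {S : Subring (Module.End F (Fin n → F))} (hS : ∀ x ∈ S, ∀ y ∈ S, x * y = y * x) :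
    ∃ (t : ℕ) (e : Fin t → Module.End F (Fin n → F)), Function.Injective e ∧ (∀ i, e i ∈ PI S) ∧
      (∀ d ∈ PI S, ∃ i, e i = d) ∧ ∑ i, e i = 1 := by
  classical
  haveI := finite_end (F := F) (n := n)
  haveI : Finite (PI S) := Subtype.finite
  let ε := Finite.equivFin (PI S)
  let e : Fin (Nat.card (PI S)) → Module.End F (Fin n → F) := fun i => (ε.symm i : PI S)
  have hinj : Function.Injective e := fun i j hij => ε.symm.injective (Subtype.ext hij)
  have hmem : ∀ i, e i ∈ PI S := fun i => (ε.symm i).2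
  have hsurj : ∀ d ∈ PI S, ∃ i, e i = d := fun d hd => ⟨ε ⟨d, hd⟩, by
    show ((ε.symm (ε ⟨d, hd⟩) : PI S) : Module.End F (Fin n → F)) = d
    rw [Equiv.symm_apply_apply]⟩
  refine ⟨_, e, hinj, hmem, hsurj, ?_⟩
  set s := ∑ i, e i with hs
  have hse : ∀ i, s * e i = e i := by
    intro i
    rw [hs, Finset.sum_mul, Finset.sum_eq_single i]
    · exact (hmem i).2.1
    · intro j _ hj
      exact PI.orth hS (hmem j) (hmem i) (fun h => hj (hinj h))
    · intro h; exact absurd (Finset.mem_univ _) h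
  have hss : s * s = s := by
    conv_lhs => rw [hs, Finset.mul_sum]
    rw [← hs]
    simp only [hse]
    rfl
  have hsS : s ∈ S := S.sum_mem (fun i _ => (hmem i).1)
  by_contra hne
  have h1 : (1 - s) * (1 - s) = 1 - s := by
    rw [sub_mul, mul_sub, mul_sub, one_mul, mul_one, one_mul, hss]
    abel
  obtain ⟨d, hd, hde⟩ := PI.exists_le hS (S.sub_mem S.one_mem hsS) h1 (sub_ne_zero.2 (Ne.symm hne))
  obtain ⟨i, rfl⟩ := hsurj d hd
  rw [sub_mul, one_mul, hse, sub_self] at hde
  exact hd.2.2.1 hde.symm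

/-- a family of orthogonal idempotents permuted by an irreducible group -/
theorem decomposition_of_idempotents {G : Subgroup (GL (Fin n) F)} (hirr : ActsIrreducibly (matrixSet G)) {t : ℕ}
    (ht : 2 ≤ t) (e : Fin t → Module.End F (Fin n → F)) (hidem : ∀ i, e i * e i = e i)
    (horth : ∀ i j, i ≠ j → e i * e j = 0) (hsum : ∑ i, e i = 1) (hne : ∀ i, e i ≠ 0)
    (hperm : ∀ g ∈ G, ∀ i, ∃ j, cjA g (e i) = e j) :
    ∃ m, IsMDecomposition m (fun i => LinearMap.range (e i)) ∧
      G ≤ decompositionStabilizer (fun i => LinearMap.range (e i)) := by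
  classical
  have hinj : Function.Injective e := by
    intro i j hij
    by_contra h
    have := horth i j h
    rw [← hij, hidem] at this
    exact hne i this
  have hmap : ∀ (g : GL (Fin n) F) (x : Module.End F (Fin n → F)),
      (LinearMap.range x).map (Matrix.toLin' (g : Matrix (Fin n) (Fin n) F)) = LinearMap.range (cjA g x) := by
    intro g x
    apply le_antisymm
    · rintro _ ⟨_, ⟨v, rfl⟩, rfl⟩
      refine ⟨Matrix.toLin' (g : Matrix (Fin n) (Fin n) F) v, ?_⟩
      show (Matrix.toLin' (g : Matrix (Fin n) (Fin n) F)) (x ((Matrix.toLin' ((g⁻¹ : GL (Fin n) F) : Matrix (Fin n) (Fin n) F)) (Matrix.toLin' (g : Matrix (Fin n) (Fin n) F) v))) = _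
      congr 2
      rw [Matrix.toLin'_apply, Matrix.toLin'_apply, Matrix.mulVec_mulVec, ← Units.val_mul, inv_mul_cancel,
        Units.val_one, Matrix.one_mulVec]
    · rintro _ ⟨v, rfl⟩
      exact ⟨x ((Matrix.toLin' ((g⁻¹ : GL (Fin n) F) : Matrix (Fin n) (Fin n) F)) v), ⟨_, rfl⟩, rfl⟩
  have hkill : ∀ i j, i ≠ j → ∀ v ∈ LinearMap.range (e j), e i v = 0 := by
    rintro i j hij _ ⟨v, rfl⟩
    exact LinearMap.congr_fun (horth i j hij) v
  -- transitivity
  have htrans : ∀ i j, ∃ g ∈ G, cjA g (e i) = e j := by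
    intro i j
    by_contra hcon
    push Not at hcon
    let W : Submodule F (Fin n → F) := ⨆ g : G, LinearMap.range (cjA (g : GL (Fin n) F) (e i))
    have hW : W ≤ LinearMap.ker (e j) := by
      apply iSup_le
      rintro ⟨g, hg⟩
      obtain ⟨k, hk⟩ := hperm g hg i
      show LinearMap.range (cjA g (e i)) ≤ _
      rw [hk]
      intro v hv
      rw [LinearMap.mem_ker]
      apply hkill j k _ v hv
      rintro rfl
      exact hcon g hg hk
    have hinv : ∀ s ∈ matrixSet G, W.map (Matrix.toLin' s) ≤ W := by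
      rintro _ ⟨h, hh, rfl⟩
      show W.map (Matrix.toLin' (h : Matrix (Fin n) (Fin n) F)) ≤ W
      rw [Submodule.map_iSup]
      apply iSup_le
      rintro ⟨g, hg⟩
      rw [hmap]
      have h1 : cjA h (cjA g (e i)) = cjA (h * g) (e i) := by
        have h2 : e i = tl n F ((tl n F).symm (e i)) := ((tl n F).apply_symm_apply _).symm
        rw [h2, cjA_tl, cjA_tl, cjA_tl, _root_.mul_inv_rev, Units.val_mul, Units.val_mul]
        simp only [mul_assoc]
      show LinearMap.range (cjA h (cjA g (e i))) ≤ W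
      rw [h1]
      exact le_iSup (fun g : G => LinearMap.range (cjA (g : GL (Fin n) F) (e i))) ⟨h * g, G.mul_mem hh hg⟩
    rcases hirr W hinv with h | h
    · have h1 : LinearMap.range (cjA (1 : GL (Fin n) F) (e i)) ≤ W :=
        le_iSup (fun g : G => LinearMap.range (cjA (g : GL (Fin n) F) (e i))) 1
      have h2 : cjA (1 : GL (Fin n) F) (e i) = e i := by
        have h2 : e i = tl n F ((tl n F).symm (e i)) := ((tl n F).apply_symm_apply _).symm
        rw [h2, cjA_tl]
        simp
      rw [h, h2, le_bot_iff, LinearMap.range_eq_bot] at h1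
      exact hne i h1
    · rw [h, top_le_iff, LinearMap.ker_eq_top] at hW
      exact hne j hW
  let i0 : Fin t := ⟨0, by omega⟩
  refine ⟨finrank F (LinearMap.range (e i0)), ⟨ht, ?_, ?_, ?_, ?_⟩, ?_⟩
  · rw [Nat.pos_iff_ne_zero]
    intro h0
    apply hne i0
    rw [← LinearMap.range_eq_bot]
    exact Submodule.finrank_eq_zero.1 h0
  · intro i
    obtain ⟨g, hg, hge⟩ := htrans i0 i
    show finrank F (LinearMap.range (e i)) = _
    rw [← hge, ← hmap]
    have hgi : Function.Injective (Matrix.toLin' (g : Matrix (Fin n) (Fin n) F)) := by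
      intro u v huv
      have h1 := congrArg (fun w => ((g⁻¹ : GL (Fin n) F) : Matrix (Fin n) (Fin n) F) *ᵥ w) huv
      simp only [Matrix.toLin'_apply, Matrix.mulVec_mulVec] at h1
      rwa [← Units.val_mul, inv_mul_cancel, Units.val_one, Matrix.one_mulVec, Matrix.one_mulVec] at h1
    exact (Submodule.equivMapOfInjective _ hgi _).finrank_eq.symm
  · rw [iSupIndep_def]
    intro i
    rw [Submodule.disjoint_def]
    rintro x ⟨v, rfl⟩ hx
    have h1 : (⨆ j, ⨆ (_ : j ≠ i), LinearMap.range (e j)) ≤ LinearMap.ker (e i) := by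
      apply iSup_le; intro j
      apply iSup_le; intro hj
      intro w hw
      rw [LinearMap.mem_ker]
      exact hkill i j hj.symm w hw
    have h2 := h1 hx
    rw [LinearMap.mem_ker] at h2
    have h3 := LinearMap.congr_fun (hidem i) v
    rw [← h3]
    exact h2
  · rw [eq_top_iff]
    intro v _
    have h1 := LinearMap.congr_fun hsum v
    rw [Module.End.one_apply, LinearMap.sum_apply] at h1
    rw [← h1]
    apply Submodule.sum_mem
    intro i _
    exact Submodule.mem_iSup_of_mem i ⟨v, rfl⟩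
  · intro g hg
    choose σ hσ using hperm g hg
    have hσi : Function.Injective σ := by
      intro i j hij
      apply hinj
      apply (cjA g).injective
      rw [hσ, hσ, hij]
    refine ⟨Equiv.ofBijective σ (Finite.injective_iff_bijective.1 hσi), fun i => ?_⟩
    rw [hmap, hσ]
    rfl

theorem exists_pow_idem {A : Type*} [Monoid A] [Finite A] (z : A) : ∃ k, 0 < k ∧ z ^ k * z ^ k = z ^ k := by
  obtain ⟨a, b, hne, hab⟩ := Finite.exists_ne_map_eq_of_infinite (fun k : ℕ => z ^ k)
  wlog h : a < b generalizing a b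
  · exact this b a hne.symm hab.symm (by omega)
  have hab' : z ^ a = z ^ b := hab
  obtain ⟨p, hp⟩ : ∃ p, b = a + p := ⟨b - a, by omega⟩
  have hp0 : 0 < p := by omega
  have h1 : ∀ m, a ≤ m → z ^ (m + p) = z ^ m := by
    intro m hm
    obtain ⟨c, rfl⟩ := Nat.exists_eq_add_of_le hm
    have : a + c + p = b + c := by omega
    rw [this, pow_add, ← hab', ← pow_add]
  have h2 : ∀ j m, a ≤ m → z ^ (m + p * j) = z ^ m := by
    intro j
    induction j with
    | zero => intro m _; rfl
    | succ j ih =>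
      intro m hm
      rw [Nat.mul_succ, ← Nat.add_assoc, h1 _ (by omega), ih m hm]
  refine ⟨p * (a + 1), Nat.mul_pos hp0 (by omega), ?_⟩
  rw [← pow_add]
  apply h2
  nlinarith

/-- nilpotent elements of invariant commutative subalgebras vanish -/
theorem nilp_zero [Finite F] (hn : 0 < n) {G : Subgroup (GL (Fin n) F)} (hirr : ActsIrreducibly (matrixSet G))
    {C : Subalgebra F (Module.End F (Fin n → F))} (hC : ∀ x ∈ C, ∀ y ∈ C, x * y = y * x)
    (hGC : ∀ g ∈ G, ∀ x ∈ C, cjA g x ∈ C) {z : Module.End F (Fin n → F)} (hz : z ∈ C) (hnil : IsNilpotent z) :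
    z = 0 := by
  classical
  haveI : Nonempty (Fin n) := ⟨⟨0, hn⟩⟩
  haveI : Nontrivial (Fin n → F) := inferInstance
  haveI := finite_end (F := F) (n := n)
  let I : Set (Module.End F (Fin n → F)) := {z | z ∈ C ∧ IsNilpotent z}
  let W : Submodule F (Fin n → F) :=
    { carrier := {v | ∀ z ∈ I, z v = 0}
      zero_mem' := fun z _ => map_zero z
      add_mem' := fun {x y} hx hy z hz => by rw [map_add, hx z hz, hy z hz, add_zero]
      smul_mem' := fun c x hx z hz => by rw [map_smul, hx z hz, smul_zero] }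
  have hWne : W ≠ ⊥ := by
    have key : ∀ T : Finset (Module.End F (Fin n → F)), (∀ z ∈ T, z ∈ I) → ∃ v : Fin n → F, v ≠ 0 ∧ ∀ z ∈ T, z v = 0 := by
      intro T
      induction T using Finset.induction_on with
      | empty =>
        intro _
        obtain ⟨v, hv⟩ := exists_ne (0 : Fin n → F)
        exact ⟨v, hv, by simp⟩
      | insert a T ha ih =>
        intro hT
        obtain ⟨v, hv, h⟩ := ih (fun x hx => hT x (Finset.mem_insert_of_mem hx))
        obtain ⟨haC, k, hk⟩ := hT a (Finset.mem_insert_self _ _)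
        have hex : ∃ k, (a ^ k) v = 0 := ⟨k, by rw [hk]; rfl⟩
        set m := Nat.find hex with hm
        have hm1 : (a ^ m) v = 0 := Nat.find_spec hex
        have hm0 : m ≠ 0 := by
          intro h0
          rw [h0, pow_zero] at hm1
          exact hv hm1
        obtain ⟨m', hm'⟩ := Nat.exists_eq_succ_of_ne_zero hm0
        refine ⟨(a ^ m') v, ?_, ?_⟩
        · intro h0
          have := Nat.find_min' hex h0
          omega
        · intro x hx
          rcases Finset.mem_insert.1 hx with rfl | hxT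
          · have : (x ^ (m' + 1)) v = 0 := by rw [← Nat.succ_eq_add_one, ← hm']; exact hm1
            rw [pow_succ'] at this
            exact this
          · have hc : Commute x a := hC x (hT x (Finset.mem_insert_of_mem hxT)).1 a haC
            have h1 := LinearMap.congr_fun (hc.pow_right m').eq v
            show x ((a ^ m') v) = 0
            have h2 : x ((a ^ m') v) = (a ^ m') (x v) := h1
            rw [h2, h x hxT, map_zero]
    obtain ⟨v, hv, h⟩ := key (Set.toFinite I).toFinset (fun z hz => by simpa using hz)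
    intro h0
    apply hv
    have : v ∈ W := fun z hz => h z (by simpa using hz)
    rwa [h0, Submodule.mem_bot] at this
  have hWinv : ∀ s ∈ matrixSet G, W.map (Matrix.toLin' s) ≤ W := by
    rintro _ ⟨g, hg, rfl⟩ _ ⟨v, hv, rfl⟩
    intro z hz
    have h1 : cjA g⁻¹ z ∈ I := by
      refine ⟨hGC _ (G.inv_mem hg) z hz.1, ?_⟩
      obtain ⟨k, hk⟩ := hz.2
      exact ⟨k, by rw [← map_pow, hk, map_zero]⟩
    have h2 := hv _ h1
    have h3 : cjA g (cjA g⁻¹ z) = z := by
      have h4 : z = tl n F ((tl n F).symm z) := ((tl n F).apply_symm_apply _).symm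
      conv_lhs => rw [h4, cjA_tl, cjA_tl]
      conv_rhs => rw [h4]
      congr 1
      rw [inv_inv]
      calc (g : Matrix (Fin n) (Fin n) F) * (((g⁻¹ : GL (Fin n) F) : Matrix (Fin n) (Fin n) F) * (tl n F).symm z *
            (g : Matrix (Fin n) (Fin n) F)) * ((g⁻¹ : GL (Fin n) F) : Matrix (Fin n) (Fin n) F)
          = ((g : Matrix (Fin n) (Fin n) F) * ((g⁻¹ : GL (Fin n) F) : Matrix (Fin n) (Fin n) F)) * (tl n F).symm z *
            ((g : Matrix (Fin n) (Fin n) F) * ((g⁻¹ : GL (Fin n) F) : Matrix (Fin n) (Fin n) F)) := by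
            simp only [mul_assoc]
        _ = _ := by rw [← Units.val_mul, mul_inv_cancel, Units.val_one, one_mul, mul_one]
    rw [← h3]
    show (Matrix.toLin' (g : Matrix (Fin n) (Fin n) F)) ((cjA g⁻¹ z) ((Matrix.toLin' ((g⁻¹ : GL (Fin n) F) : Matrix (Fin n) (Fin n) F)) (Matrix.toLin' (g : Matrix (Fin n) (Fin n) F) v))) = 0
    have h5 : (Matrix.toLin' ((g⁻¹ : GL (Fin n) F) : Matrix (Fin n) (Fin n) F)) (Matrix.toLin' (g : Matrix (Fin n) (Fin n) F) v) = v := by
      rw [Matrix.toLin'_apply, Matrix.toLin'_apply, Matrix.mulVec_mulVec, ← Units.val_mul, inv_mul_cancel,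
        Units.val_one, Matrix.one_mulVec]
    rw [h5, h2, map_zero]
  have hW := (hirr W hWinv).resolve_left hWne
  apply LinearMap.ext
  intro v
  have hv : v ∈ W := by rw [hW]; trivial
  exact hv z ⟨hz, hnil⟩

/-- an invariant commutative subalgebra without nontrivial idempotents is a field -/
theorem field_of_no_idem [Finite F] (hn : 0 < n) {G : Subgroup (GL (Fin n) F)} (hirr : ActsIrreducibly (matrixSet G))
    {C : Subalgebra F (Module.End F (Fin n → F))} (hC : ∀ x ∈ C, ∀ y ∈ C, x * y = y * x)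
    (hGC : ∀ g ∈ G, ∀ x ∈ C, cjA g x ∈ C) (hid : ∀ d ∈ C, d * d = d → d = 0 ∨ d = 1) :
    ∀ z ∈ C, z ≠ 0 → ∃ y ∈ C, z * y = 1 := by
  intro z hz hz0
  haveI := finite_end (F := F) (n := n)
  obtain ⟨k, hk, hkk⟩ := exists_pow_idem z
  rcases hid (z ^ k) (C.pow_mem hz k) hkk with h | h
  · exact absurd (nilp_zero hn hirr hC hGC hz ⟨k, h⟩) hz0
  · refine ⟨z ^ (k - 1), C.pow_mem hz _, ?_⟩
    rw [← pow_succ', Nat.sub_add_cancel hk, h]

end Cfsg.Agent.H29.Fm
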