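import Mathlib
import Cfsg.Agent.H29_Fm2

set_option autoImplicit false

/-! the centre of the enveloping algebra of a normal subgroup -/

namespace Cfsg.Agent.H29.Fm

open Matrix Module Cfsg.Geo Cfsg.Agent.H29.Asc Cfsg.Agent.H29.AscF Cfsg.Agent.H29.Trv Cfsg.Agent.H29.Clifford

variable {F : Type*} [Field F] {n : ℕ} {τ : F ≃+* F} {ε : F} {f : (Fin n → F) → (Fin n → F) → F}

theorem cjA_one (x : Module.End F (Fin n → F)) : cjA (1 : GL (Fin n) F) x = x := by
  have h2 : x = tl n F ((tl n F).symm x) := ((tl n F).apply_symm_apply _).symm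
  rw [h2, cjA_tl]
  simp

theorem cjA_mul (h g : GL (Fin n) F) (x : Module.End F (Fin n → F)) : cjA h (cjA g x) = cjA (h * g) x := by
  have h2 : x = tl n F ((tl n F).symm x) := ((tl n F).apply_symm_apply _).symm
  rw [h2, cjA_tl, cjA_tl, cjA_tl, _root_.mul_inv_rev, Units.val_mul, Units.val_mul]
  simp only [mul_assoc]

theorem cjA_inv_self (g : GL (Fin n) F) (x : Module.End F (Fin n → F)) : cjA g (cjA g⁻¹ x) = x := by
  rw [cjA_mul, mul_inv_cancel, cjA_one]

theorem cjA_self_inv (g : GL (Fin n) F) (x : Module.End F (Fin n → F)) : cjA g⁻¹ (cjA g x) = x := by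
  rw [cjA_mul, inv_mul_cancel, cjA_one]

theorem Adj.cjA {G : Subgroup (GL (Fin n) F)} (hG : Fx f G) {g : GL (Fin n) F} (hg : g ∈ G)
    {x x' : Module.End F (Fin n → F)} (hx : Adj f x x') : Adj f (Asc.cjA g x) (Asc.cjA g x') := by
  intro u v
  have hgi := hG g⁻¹ (G.inv_mem hg)
  have h1 : ∀ y : Module.End F (Fin n → F), ∀ w, Asc.cjA g y w = (g : Matrix (Fin n) (Fin n) F) *ᵥ
      (y (((g⁻¹ : GL (Fin n) F) : Matrix (Fin n) (Fin n) F) *ᵥ w)) := fun _ _ => rfl
  have hcancel : ∀ w : Fin n → F, ((g⁻¹ : GL (Fin n) F) : Matrix (Fin n) (Fin n) F) *ᵥ ((g : Matrix (Fin n) (Fin n) F) *ᵥ w) = w := by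
    intro w
    rw [Matrix.mulVec_mulVec, ← Units.val_mul, inv_mul_cancel, Units.val_one, Matrix.one_mulVec]
  rw [h1, h1]
  have h2 := hgi ((g : Matrix (Fin n) (Fin n) F) *ᵥ (x (((g⁻¹ : GL (Fin n) F) : Matrix (Fin n) (Fin n) F) *ᵥ u))) v
  have h3 := hgi u ((g : Matrix (Fin n) (Fin n) F) *ᵥ (x' (((g⁻¹ : GL (Fin n) F) : Matrix (Fin n) (Fin n) F) *ᵥ v)))
  rw [hcancel] at h2 h3
  rw [← h2, ← h3]
  exact hx _ _

/-- ring automorphisms permute the primitive idempotents -/
theorem PI.map {S : Subring (Module.End F (Fin n → F))} {φ ψ : Module.End F (Fin n → F) → Module.End F (Fin n → F)}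
    (h1 : ∀ x ∈ S, φ x ∈ S) (h2 : ∀ x ∈ S, ψ x ∈ S) (h3 : ∀ x ∈ S, ψ (φ x) = x) (h4 : ∀ x ∈ S, φ (ψ x) = x)
    (hmul : ∀ x ∈ S, ∀ y ∈ S, φ (x * y) = φ x * φ y) (hmul' : ∀ x ∈ S, ∀ y ∈ S, ψ (x * y) = ψ x * ψ y)
    (h0 : φ 0 = 0) (h0' : ψ 0 = 0) {e : Module.End F (Fin n → F)} (he : e ∈ PI S) : φ e ∈ PI S := by
  obtain ⟨he1, he2, he3, he4⟩ := he
  refine ⟨h1 e he1, by rw [← hmul e he1 e he1, he2], ?_, ?_⟩
  · intro h
    apply he3
    rw [← h3 e he1, h, h0']
  · intro d hd hdd hed
    rcases he4 (ψ d) (h2 d hd) (by rw [← hmul' d hd d hd, hdd]) (by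
      have h5 := congrArg ψ hed
      rw [hmul' _ (h1 e he1) _ hd, h3 e he1] at h5
      exact h5) with h | h
    · left; rw [← h4 d hd, h, h0]
    · right; rw [← h4 d hd, h]

/-- Clifford theory with forms: the centre is a field, or there is a decomposition compatible with the form -/
theorem center_cases [Finite F] (hn : 0 < n) (h : SFm τ ε f) {G : Subgroup (GL (Fin n) F)} (hG : Fx f G)
    (hirr : ActsIrreducibly (matrixSet G)) {C : Subalgebra F (Module.End F (Fin n → F))}
    (hC : ∀ x ∈ C, ∀ y ∈ C, x * y = y * x) (hCl : AClosed f C) (hGC : ∀ g ∈ G, ∀ x ∈ C, cjA g x ∈ C) :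
    (∃ (t k : ℕ) (D : Fin t → Submodule F (Fin n → F)), IsNondegenerateMDecomposition f k D ∧
      G ≤ decompositionStabilizer D) ∨
    (∃ (k : ℕ) (D : Fin 2 → Submodule F (Fin n → F)), IsMDecomposition k D ∧
      (∀ i, IsTotallySingularFor f (D i)) ∧ G ≤ decompositionStabilizer D) ∨
    (∀ z ∈ C, z ≠ 0 → ∃ y ∈ C, z * y = 1) := by
  classical
  haveI : Nonempty (Fin n) := ⟨⟨0, hn⟩⟩
  haveI : Nontrivial (Fin n → F) := inferInstance
  haveI : Nontrivial (Module.End F (Fin n → F)) := inferInstance
  let S : Subring (Module.End F (Fin n → F)) :=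
    { carrier := {z | z ∈ C ∧ Adj f z z}
      mul_mem' := by
        rintro x y ⟨hx, hx'⟩ ⟨hy, hy'⟩
        refine ⟨C.mul_mem hx hy, ?_⟩
        have := Adj.mul hx' hy'
        rwa [hC y hy x hx] at this
      one_mem' := ⟨C.one_mem, Adj.one⟩
      add_mem' := by
        rintro x y ⟨hx, hx'⟩ ⟨hy, hy'⟩
        exact ⟨C.add_mem hx hy, Adj.add h hx' hy'⟩
      zero_mem' := ⟨C.zero_mem, Adj.zero h⟩
      neg_mem' := by
        rintro x ⟨hx, hx'⟩
        refine ⟨C.neg_mem hx, ?_⟩
        intro u v
        show f (-(x u)) v = f u (-(x v))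
        rw [h.neg_left, h.neg_right, hx' u v] }
  have hS : ∀ x ∈ S, ∀ y ∈ S, x * y = y * x := fun x hx y hy => hC x hx.1 y hy.1
  have hGS : ∀ g ∈ G, ∀ x ∈ S, cjA g x ∈ S := fun g hg x hx => ⟨hGC g hg x hx.1, Adj.cjA hG hg hx.2⟩
  obtain ⟨t, e, hinj, hmem, hsurj, hsum⟩ := PI.enum hS
  have ht : 1 ≤ t := by
    by_contra hcon
    have : t = 0 := by omega
    subst this
    simp at hsum
  have hperm : ∀ g ∈ G, ∀ i, ∃ j, cjA g (e i) = e j := by
    intro g hg i
    obtain ⟨j, hj⟩ := hsurj (cjA g (e i)) (PI.map (S := S) (φ := cjA g) (ψ := cjA g⁻¹) (hGS g hg) (hGS _ (G.inv_mem hg))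
      (fun x _ => cjA_self_inv g x) (fun x _ => cjA_inv_self g x) (fun x _ y _ => map_mul _ _ _)
      (fun x _ y _ => map_mul _ _ _) (map_zero _) (map_zero _) (hmem i))
    exact ⟨j, hj.symm⟩
  rcases Nat.eq_or_lt_of_le ht with h1 | h2
  · -- no self-adjoint idempotents
    right
    have hone : ∀ d ∈ S, d * d = d → d = 0 ∨ d = 1 := by
      intro d hd hdd
      by_cases hd0 : d = 0
      · exact Or.inl hd0
      right
      obtain ⟨c, hc, hdc⟩ := PI.exists_le hS hd hdd hd0
      obtain ⟨i, rfl⟩ := hsurj c hc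
      have h3 : e i = 1 := by
        rw [← hsum]
        subst h1
        rw [Fin.sum_univ_one, Subsingleton.elim i 0]
      rw [h3, mul_one] at hdc
      exact hdc
    by_cases hid : ∀ d ∈ C, d * d = d → d = 0 ∨ d = 1
    · right
      exact field_of_no_idem hn hirr hC hGC hid
    · left
      push Not at hid
      obtain ⟨c, hc, hcc, hc0, hc1⟩ := hid
      -- the key property
      have key : ∀ d ∈ C, d * d = d → d ≠ 0 → d ≠ 1 → ∀ d', Adj f d d' → d' ∈ C ∧ d' * d' = d' ∧ d * d' = 0 ∧ d + d' = 1 := by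
        intro d hd hdd hd0 hd1 d' hadj
        obtain ⟨d'', hd'', hadj'⟩ := hCl d hd
        have e1 := Adj.unique h hadj hadj'
        subst e1
        have hdd' : d' * d' = d' := by
          have := Adj.mul hadj hadj
          rw [hdd] at this
          exact Adj.unique h this hadj
        have hcm := hC d hd d' hd''
        have hsa : Adj f (d * d') (d * d') := Adj.mul hadj (Adj.symm h hadj)
        have hidm : (d * d') * (d * d') = d * d' := by
          calc (d * d') * (d * d') = d * (d' * d) * d' := by simp only [mul_assoc]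
            _ = (d * d) * (d' * d') := by rw [← hcm]; simp only [mul_assoc]
            _ = d * d' := by rw [hdd, hdd']
        have hz : d * d' = 0 := by
          rcases hone _ ⟨C.mul_mem hd hd'', hsa⟩ hidm with h3 | h3
          · exact h3
          · exfalso
            apply hd1
            calc d = d * 1 := (mul_one d).symm
              _ = d * (d * d') := by rw [h3]
              _ = (d * d) * d' := (mul_assoc _ _ _).symm
              _ = 1 := by rw [hdd, h3]
        refine ⟨hd'', hdd', hz, ?_⟩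
        have hsa2 : Adj f (d + d') (d + d') := by
          have := Adj.add h hadj (Adj.symm h hadj)
          rwa [add_comm d' d] at this
        have hidm2 : (d + d') * (d + d') = d + d' := by
          rw [mul_add, add_mul, add_mul, hdd, hdd', ← hcm, hz, add_zero, zero_add]
        rcases hone _ ⟨C.add_mem hd hd'', hsa2⟩ hidm2 with h3 | h3
        · exfalso
          apply hd0
          have h4 : d * (d + d') = 0 := by rw [h3, mul_zero]
          rw [mul_add, hdd, hz, add_zero] at h4
          exact h4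
        · exact h3
      obtain ⟨c', -, hadj⟩ := hCl c hc
      obtain ⟨hc'C, hc'c', hcz, hcs⟩ := key c hc hcc hc0 hc1 c' hadj
      have hcm := hC c hc c' hc'C
      have hc'0 : c' ≠ 0 := by
        intro h0; rw [h0, add_zero] at hcs; exact hc1 hcs
      have hc'1 : c' ≠ 1 := by
        intro h0
        rw [h0, mul_one] at hcz
        exact hc0 hcz
      have hcase : ∀ d ∈ C, d * d = d → d ≠ 0 → d ≠ 1 → d = c ∨ d = c' := by
        intro d hd hdd hd0 hd1
        obtain ⟨d', -, hdadj⟩ := hCl d hd
        obtain ⟨hd'C, hd'd', hdz, hds⟩ := key d hd hdd hd0 hd1 d' hdadj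
        have hcd := hC c hc d hd
        -- general comparison
        have cmp : ∀ a a' : Module.End F (Fin n → F), a ∈ C → a' ∈ C → a * a = a → a * a' = 0 → a ≠ 1 → Adj f a a' →
            a * d ≠ 0 → d = a := by
          intro a a' ha ha' haa haz ha1 haadj hne
          have had := hC a ha d hd
          have h3 : (a * d) * (a * d) = a * d := by
            calc (a * d) * (a * d) = a * (d * a) * d := by simp only [mul_assoc]
              _ = (a * a) * (d * d) := by rw [← had]; simp only [mul_assoc]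
              _ = a * d := by rw [haa, hdd]
          have h4 : a * d ≠ 1 := by
            intro h4
            apply ha1
            calc a = a * (a * d) := by rw [h4, mul_one]
              _ = 1 := by rw [← mul_assoc, haa, h4]
          obtain ⟨-, -, -, h5⟩ := key (a * d) (C.mul_mem ha hd) h3 hne h4 (d' * a') (Adj.mul haadj hdadj)
          have h6 : a * d = a := by
            have h7 : a * (a * d + d' * a') = a := by rw [h5, mul_one]
            rw [mul_add, ← mul_assoc, haa, ← mul_assoc, hC a ha d' hd'C, mul_assoc d' a a', haz, mul_zero,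
              add_zero] at h7
            exact h7
          have h8 : a * d = d := by
            have h7 : d * (a * d + d' * a') = d := by rw [h5, mul_one]
            rw [mul_add, ← mul_assoc, ← had, mul_assoc, hdd, ← mul_assoc, hdz, zero_mul, add_zero] at h7
            exact h7
          exact h8.symm.trans h6
        by_cases hcd0 : c * d = 0
        · right
          refine cmp c' c hc'C hc hc'c' (by rw [← hcm, hcz]) hc'1 (Adj.symm h hadj) ?_
          intro h3
          apply hd0
          have h4 : (c + c') * d = d := by rw [hcs, one_mul]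
          rw [add_mul, hcd0, h3, add_zero] at h4
          exact h4.symm
        · left
          exact cmp c c' hc hc'C hcc hcz hc1 hadj hcd0
      have hcj : ∀ g ∈ G, ∀ d ∈ C, d * d = d → d ≠ 0 → d ≠ 1 → cjA g d = c ∨ cjA g d = c' := by
        intro g hg d hd hdd hd0 hd1
        apply hcase _ (hGC g hg d hd)
        · rw [← map_mul, hdd]
        · intro h3; exact hd0 ((cjA g).injective (by rw [h3, map_zero]))
        · intro h3; exact hd1 ((cjA g).injective (by rw [h3, map_one]))
      obtain ⟨k, hk1, hk2⟩ := decomposition_of_idempotents hirr (t := 2) (le_refl _) ![c, c'] (by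
          intro i; fin_cases i
          · exact hcc
          · exact hc'c') (by
          intro i j hij
          fin_cases i <;> fin_cases j
          · exact absurd rfl hij
          · exact hcz
          · show c' * c = 0
            rw [← hcm, hcz]
          · exact absurd rfl hij) (by
          rw [Fin.sum_univ_two]; exact hcs) (by
          intro i; fin_cases i
          · exact hc0
          · exact hc'0) (by
          intro g hg i
          have h3 : cjA g ((![c, c'] : Fin 2 → Module.End F (Fin n → F)) i) = c ∨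
              cjA g ((![c, c'] : Fin 2 → Module.End F (Fin n → F)) i) = c' := by
            fin_cases i
            · exact hcj g hg c hc hcc hc0 hc1
            · exact hcj g hg c' hc'C hc'c' hc'0 hc'1
          rcases h3 with h3 | h3
          · exact ⟨0, h3⟩
          · exact ⟨1, h3⟩)
      refine ⟨k, _, hk1, ?_, hk2⟩
      intro i
      fin_cases i
      · rintro _ ⟨u, rfl⟩ _ ⟨v, rfl⟩
        show f (c u) (c v) = 0
        rw [hadj]
        have : c' (c v) = (c' * c) v := rfl
        rw [this, ← hcm, hcz, LinearMap.zero_apply, h.zero_right]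
      · rintro _ ⟨u, rfl⟩ _ ⟨v, rfl⟩
        show f (c' u) (c' v) = 0
        rw [Adj.symm h hadj]
        have : c (c' v) = (c * c') v := rfl
        rw [this, hcz, LinearMap.zero_apply, h.zero_right]
  · left
    obtain ⟨k, hk1, hk2⟩ := decomposition_of_idempotents hirr h2 e (fun i => (hmem i).2.1)
      (fun i j hij => PI.orth hS (hmem i) (hmem j) (fun h3 => hij (hinj h3))) hsum (fun i => (hmem i).2.2.1) hperm
    refine ⟨t, k, _, ⟨hk1, ?_, ?_⟩, hk2⟩
    · rintro i _ ⟨u, rfl⟩ hw0
      obtain ⟨x, hx⟩ := h.nd _ hw0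
      have h3 : f (e i x) (e i u) ≠ 0 := by
        rw [(hmem i).1.2]
        have h4 : e i (e i u) = e i u := LinearMap.congr_fun (hmem i).2.1 u
        rw [h4]
        exact hx
      refine ⟨⟨e i x, ⟨x, rfl⟩, h3⟩, ⟨e i x, ⟨x, rfl⟩, fun h0 => h3 (h.comm_zero h0)⟩⟩
    · rintro i j hij _ ⟨u, rfl⟩ _ ⟨v, rfl⟩
      rw [(hmem i).1.2]
      have h4 : e i (e j v) = (e i * e j) v := rfl
      rw [h4, PI.orth hS (hmem i) (hmem j) (fun h3 => hij (hinj h3)), LinearMap.zero_apply, h.zero_right]

end Cfsg.Agent.H29.Fm
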