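import Mathlib
import Cfsg.Agent.H29_Fm3
import Cfsg.Agent.H5_HermBasis

set_option autoImplicit false

/-! algebras normalised by an irreducible group of isometries: prime degree subfields -/

namespace Cfsg.Agent.H29.Fm

open Matrix Module Cfsg.Geo Cfsg.Agent.H29.Clifford Cfsg.Agent.H29.Asc Cfsg.Agent.H29.AscF Cfsg.Agent.H29.Trv

variable {F : Type*} [Field F] {n : ℕ}
variable {τ : F ≃+* F} {ε : F} {f : (Fin n → F) → (Fin n → F) → F}

theorem semisimple_of_irr {G : Subgroup (GL (Fin n) F)} (hirr : ActsIrreducibly (matrixSet G))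
    (R : Subalgebra F (Module.End F (Fin n → F))) (hR : ∀ g ∈ G, Normalises R (glEquiv g)) :
    IsSemisimpleModule R (Fin n → F) := by
  let G' : Set ((Fin n → F) ≃ₗ[F] (Fin n → F)) := {h | ∃ g ∈ G, h = glEquiv g}
  have hG : ∀ h ∈ G', Normalises R h := by
    rintro h ⟨g, hg, rfl⟩; exact hR g hg
  have hmul : ∀ a ∈ G', ∀ b ∈ G', b.trans a ∈ G' := by
    rintro a ⟨g, hg, rfl⟩ b ⟨k, hk, rfl⟩
    refine ⟨g * k, Subgroup.mul_mem _ hg hk, ?_⟩
    apply LinearEquiv.toLinearMap_injective
    rw [glEquiv_coe, Units.val_mul, Matrix.toLin'_mul]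
    rfl
  have hone : LinearEquiv.refl F (Fin n → F) ∈ G' := by
    refine ⟨1, Subgroup.one_mem _, ?_⟩
    apply LinearEquiv.toLinearMap_injective
    rw [glEquiv_coe, Units.val_one, Matrix.toLin'_one]
    rfl
  have hirr' : ∀ W : Submodule F (Fin n → F), (∀ h ∈ G', W.map (h : (Fin n → F) →ₗ[F] (Fin n → F)) ≤ W) →
      W = ⊥ ∨ W = ⊤ := by
    intro W hW
    apply hirr W
    rintro _ ⟨g, hg, rfl⟩
    exact hW _ ⟨g, hg, rfl⟩
  exact semisimple R G' hG hmul hone hirr'

/-- the key algebra lemma: a normalised algebra of operators whose centre is a field is simple -/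
theorem simple_of_center_field [Finite F] (hn : 0 < n) {G : Subgroup (GL (Fin n) F)}
    (hirr : ActsIrreducibly (matrixSet G))
    (R : Subalgebra F (Module.End F (Fin n → F))) (hR : ∀ g ∈ G, Normalises R (glEquiv g))
    (hC : ∀ z ∈ cen R, z ≠ 0 → ∃ y ∈ cen R, z * y = 1) : IsSimpleRing R ∧ IsArtinianRing R := by
  classical
  haveI : Nonempty (Fin n) := ⟨⟨0, hn⟩⟩
  haveI : Nontrivial (Fin n → F) := inferInstance
  haveI : Nontrivial (Module.End F (Fin n → F)) := inferInstance
  haveI : Finite (Module.End F (Fin n → F)) := finite_end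
  haveI : Finite R := Subtype.finite
  haveI hss := semisimple_of_irr hirr R hR
  haveI : IsSemisimpleRing R := by
    let φ : R →ₗ[R] (Fin n → (Fin n → F)) :=
      { toFun := fun r i => (r : Module.End F (Fin n → F)) (Pi.single i 1)
        map_add' := fun x y => by funext i; rfl
        map_smul' := fun x y => by funext i; rfl }
    apply IsSemisimpleModule.of_injective φ
    intro x y hxy
    apply Subtype.ext
    apply (Pi.basisFun F (Fin n)).ext
    intro i
    rw [Pi.basisFun_apply]
    exact congrFun hxy i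
  refine ⟨?_, inferInstance⟩
  obtain ⟨m, D, d, hD, hA, hd, ⟨e⟩⟩ := IsSemisimpleRing.exists_algEquiv_pi_matrix_divisionRing F R
  haveI : Nontrivial R := ⟨0, 1, fun h => zero_ne_one (congrArg Subtype.val h)⟩
  -- centre in terms of `e`
  have hidem : ∀ i : Fin m, ∃ z ∈ cen R, z * z = z ∧ z ≠ 0 ∧
      (∀ (hz : z ∈ R), e ⟨z, hz⟩ = Pi.single i 1) := by
    intro i
    let z0 : R := e.symm (Pi.single i 1)
    refine ⟨z0, ?_, ?_, ?_, ?_⟩
    · rw [mem_cen]
      refine ⟨z0.2, fun r hr => ?_⟩
      have h1 : z0 * ⟨r, hr⟩ = ⟨r, hr⟩ * z0 := by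
        apply e.injective
        rw [map_mul, map_mul, AlgEquiv.apply_symm_apply]
        funext j
        by_cases hij : j = i
        · subst hij; simp
        · simp [Pi.single_eq_of_ne hij]
      exact congrArg Subtype.val h1
    · have h1 : z0 * z0 = z0 := by
        apply e.injective
        rw [map_mul, AlgEquiv.apply_symm_apply]
        rw [← Pi.single_mul, one_mul]
      exact congrArg Subtype.val h1
    · intro h0
      have h1 : z0 = 0 := Subtype.ext h0
      have h2 := congrArg e h1
      rw [AlgEquiv.apply_symm_apply, map_zero] at h2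
      have h3 := congrFun h2 i
      rw [Pi.single_eq_same] at h3
      haveI : Nonempty (Fin (d i)) := ⟨⟨0, Nat.pos_of_ne_zero (hd i).out⟩⟩
      exact one_ne_zero h3
    · intro hz
      show e z0 = _
      rw [AlgEquiv.apply_symm_apply]
  have hone : ∀ i : Fin m, (Pi.single i 1 : ∀ i, Matrix (Fin (d i)) (Fin (d i)) (D i)) = 1 := by
    intro i
    obtain ⟨z, hz, hzz, hz0, hze⟩ := hidem i
    obtain ⟨y, hy, hzy⟩ := hC z hz hz0
    have hz1 : z = 1 := by
      calc z = z * (z * y) := by rw [hzy, mul_one]
        _ = (z * z) * y := by rw [mul_assoc]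
        _ = 1 := by rw [hzz, hzy]
    have hzR : z ∈ R := ((mem_cen).1 hz).1
    rw [← hze hzR]
    have : (⟨z, hzR⟩ : R) = 1 := Subtype.ext hz1
    rw [this, map_one]
  have hsub : Subsingleton (Fin m) := by
    constructor
    intro i j
    by_contra hij
    have h1 := congrFun (hone i) j
    rw [Pi.single_eq_of_ne (Ne.symm hij)] at h1
    haveI : Nonempty (Fin (d j)) := ⟨⟨0, Nat.pos_of_ne_zero (hd j).out⟩⟩
    exact zero_ne_one h1
  have hne : Nonempty (Fin m) := by
    by_contra hcon
    rw [not_nonempty_iff] at hcon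
    have : (0 : R) = 1 := e.injective (Subsingleton.elim _ _)
    exact zero_ne_one this
  obtain ⟨i⟩ := hne
  haveI : Nonempty (Fin (d i)) := ⟨⟨0, Nat.pos_of_ne_zero (hd i).out⟩⟩
  let π : (∀ i, Matrix (Fin (d i)) (Fin (d i)) (D i)) →+* Matrix (Fin (d i)) (Fin (d i)) (D i) := Pi.evalRingHom _ i
  let π' : R →+* Matrix (Fin (d i)) (Fin (d i)) (D i) := π.comp (e : R →+* _)
  have hb : Function.Bijective π' := by
    constructor
    · intro x y hxy
      apply e.injective
      funext j
      obtain rfl := Subsingleton.elim i j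
      exact hxy
    · intro y
      refine ⟨e.symm (Pi.single i y), ?_⟩
      show (e (e.symm (Pi.single i y))) i = y
      rw [AlgEquiv.apply_symm_apply, Pi.single_eq_same]
  exact IsSimpleRing.of_surjective (RingEquiv.ofBijective π' hb).symm.toRingHom inferInstance
    (RingEquiv.ofBijective π' hb).symm.surjective

/-- elements of a finite field `C` fixed by the `|K|`-th power lie in the subfield `K` -/
theorem mem_of_pow_card {A : Type*} [Ring A] [Algebra F A] [Finite A] {C K : Subalgebra F A} (hC : IsField C)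
    (hKC : K ≤ C) (hK : ∀ x ∈ K, x ^ Nat.card K = x) (h1 : 1 < Nat.card K) {x : A} (hx : x ∈ C)
    (hxp : x ^ Nat.card K = x) : x ∈ K := by
  classical
  letI : Field C := hC.toField
  let N := Nat.card K
  let p : Polynomial C := Polynomial.X ^ N - Polynomial.X
  have hp : p ≠ 0 := FiniteField.X_pow_card_sub_X_ne_zero C h1
  have hdeg : p.natDegree = N := FiniteField.X_pow_card_sub_X_natDegree_eq C h1
  let T : Set C := {y | y ^ N = y}
  have hT : T ⊆ (p.roots.toFinset : Set C) := by
    intro y hy
    rw [Finset.mem_coe, Multiset.mem_toFinset, Polynomial.mem_roots hp]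
    show Polynomial.IsRoot p y
    rw [Polynomial.IsRoot.def]
    simp only [p, Polynomial.eval_sub, Polynomial.eval_pow, Polynomial.eval_X]
    rw [show y ^ N = y from hy, sub_self]
  have hTN : T.ncard ≤ N := by
    calc T.ncard ≤ (p.roots.toFinset : Set C).ncard := Set.ncard_le_ncard hT (Finset.finite_toSet _)
      _ = p.roots.toFinset.card := Set.ncard_coe_finset _
      _ ≤ p.roots.card := Multiset.toFinset_card_le _
      _ ≤ p.natDegree := Polynomial.card_roots' p
      _ = N := hdeg
  have hKT : (K : Set A) ⊆ Subtype.val '' T := by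
    intro y hy
    exact ⟨⟨y, hKC hy⟩, Subtype.ext (hK y hy), rfl⟩
  have hfin : (Subtype.val '' T).Finite := Set.toFinite _
  have hcard : (Subtype.val '' T).ncard ≤ (K : Set A).ncard := by
    rw [Set.ncard_image_of_injective _ Subtype.val_injective]
    exact hTN
  have heq := Set.eq_of_subset_of_ncard_le hKT hcard hfin
  have : x ∈ Subtype.val '' T := ⟨⟨x, hx⟩, Subtype.ext hxp, rfl⟩
  rw [← heq] at this
  exact this

theorem norm_surj [Fintype F] (hτ : τ ≠ RingEquiv.refl F) (hinv : ∀ a, τ (τ a) = a) {c : F} (hc : c ≠ 0)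
    (hcc : τ c = c) : ∃ d : F, d ≠ 0 ∧ d * τ d = c := by
  obtain ⟨q, hq, hτq⟩ := Cfsg.Agent.H5.Herm.sigma_eq (τ : F →+* F) (by
    intro h
    apply hτ
    ext a
    exact congrArg (fun g : F →+* F => g a) h) hinv
  have hq0 : 0 < q := by
    rcases Nat.eq_zero_or_pos q with h | h
    · subst h
      have := Fintype.card_pos (α := F)
      rw [hq] at this
      simp at this
    · exact h
  have hcard : Nat.card Fˣ = (q - 1) * (q + 1) := by
    rw [card_units, hq]
    have : q ^ 2 - 1 = (q + 1) * (q - 1) := by
      rw [← Nat.sq_sub_sq, one_pow]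
    rw [this, mul_comm]
  have hcq : (Units.mk0 c hc) ^ (q - 1) = 1 := by
    have h1 : c ^ q = c := by rw [← hτq c]; exact hcc
    apply mul_right_cancel (b := Units.mk0 c hc)
    rw [← pow_succ, Nat.sub_add_cancel hq0, one_mul]
    exact Units.ext h1
  obtain ⟨g, hg⟩ := IsCyclic.exists_generator (α := Fˣ)
  obtain ⟨k, hk⟩ := mem_powers_iff_mem_zpowers.2 (hg (Units.mk0 c hc))
  have hk' : g ^ k = Units.mk0 c hc := hk
  have hord : orderOf g = (q - 1) * (q + 1) := by
    rw [← hcard]
    exact orderOf_eq_card_of_forall_mem_zpowers hg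
  have hdvd : (q - 1) * (q + 1) ∣ k * (q - 1) := by
    rw [← hord]
    apply orderOf_dvd_of_pow_eq_one
    rw [pow_mul, hk', hcq]
  have hq1 : 0 < q - 1 ∨ q - 1 = 0 := by omega
  have hdv : (q + 1) ∣ k := by
    rcases hq1 with h | h
    · rw [mul_comm] at hdvd
      exact Nat.dvd_of_mul_dvd_mul_right h hdvd
    · exfalso
      have h1 : q = 1 := by omega
      have h2 := Fintype.one_lt_card (α := F)
      rw [hq, h1] at h2
      omega
  obtain ⟨j, hj⟩ := hdv
  refine ⟨((g ^ j : Fˣ) : F), (g ^ j).ne_zero, ?_⟩
  have h1 : τ ((g ^ j : Fˣ) : F) = ((g ^ j : Fˣ) : F) ^ q := hτq _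
  rw [h1, ← pow_succ', ← Units.val_pow_eq_pow_val, ← pow_mul, mul_comm, ← hj, hk', Units.val_mk0]

theorem h90 (hτ : τ ≠ RingEquiv.refl F) (hinv : ∀ a, τ (τ a) = a) {δ : F} (hδ : δ * τ δ = 1) :
    ∃ d : F, d ≠ 0 ∧ τ d = δ * d := by
  by_cases h : 1 + τ δ = 0
  · have h1 : ∃ x, τ x ≠ x := by
      by_contra hcon
      push Not at hcon
      exact hτ (RingEquiv.ext hcon)
    obtain ⟨x, hx⟩ := h1
    have h2 : τ δ = -1 := by linear_combination h
    have h3 : δ = -1 := by
      rw [← hinv δ, h2, map_neg, map_one]
    refine ⟨x - τ x, ?_, ?_⟩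
    · intro h4
      exact hx (sub_eq_zero.1 h4).symm
    · rw [map_sub, hinv, h3]
      ring
  · refine ⟨1 + τ δ, h, ?_⟩
    rw [map_add, map_one, hinv]
    linear_combination (-1 : F) * hδ

/-- the centre is trivial or there is a prime degree subfield -/
theorem field_sub [Fintype F] (hn : 0 < n) (h : SFm τ ε f) {G : Subgroup (GL (Fin n) F)}
    {C : Subalgebra F (Module.End F (Fin n → F))}
    (hC : ∀ x ∈ C, ∀ y ∈ C, x * y = y * x) (hCl : AClosed f C) (hGC : ∀ g ∈ G, ∀ x ∈ C, cjA g x ∈ C)
    (hCf : ∀ z ∈ C, z ≠ 0 → ∃ y ∈ C, z * y = 1) :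
    (∀ z ∈ C, ∃ c : F, z = c • 1) ∨
    ∃ (r : ℕ) (K : Subalgebra F (Matrix (Fin n) (Fin n) F)), r.Prime ∧ (τ ≠ RingEquiv.refl F → Odd r) ∧
      IsFieldSubalgebra r K ∧ IsAdjointClosedFor f K ∧ G ≤ subalgebraNormalizer K := by
  classical
  haveI : Nonempty (Fin n) := ⟨⟨0, hn⟩⟩
  haveI : Nontrivial (Fin n → F) := inferInstance
  haveI : Nontrivial (Module.End F (Fin n → F)) := inferInstance
  haveI : Finite (Module.End F (Fin n → F)) := finite_end
  have hCF : IsField C :=
    { exists_pair_ne := ⟨0, 1, fun h => zero_ne_one (congrArg Subtype.val h)⟩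
      mul_comm := fun x y => Subtype.ext (hC x x.2 y y.2)
      mul_inv_cancel := by
        intro a ha
        obtain ⟨y, hy, hay⟩ := hCf a a.2 (fun h => ha (Subtype.ext h))
        exact ⟨⟨y, hy⟩, Subtype.ext hay⟩ }
  by_cases h1 : 1 < finrank F C
  · right
    obtain ⟨r, K, hr, hKC, hKr, hKc, hKi, hKσ⟩ := exists_prime_subfield C hCF h1
    have hKF : IsField K :=
      { exists_pair_ne := ⟨0, 1, fun h => zero_ne_one (congrArg Subtype.val h)⟩
        mul_comm := fun x y => Subtype.ext (hKc x x.2 y y.2)
        mul_inv_cancel := by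
          intro a ha
          obtain ⟨y, hy, hay⟩ := hKi a a.2 (fun h => ha (Subtype.ext h))
          exact ⟨⟨y, hy⟩, Subtype.ext hay⟩ }
    letI : Field K := hKF.toField
    haveI : Finite K := Subtype.finite
    haveI : Fintype K := Fintype.ofFinite K
    have hcardK : Fintype.card K = Fintype.card F ^ r := by
      have := Module.card_eq_pow_finrank (K := F) (V := K)
      rw [hKr] at this
      exact this
    have hpow : ∀ x ∈ K, x ^ Nat.card K = x := by
      intro x hx
      have := FiniteField.pow_card (⟨x, hx⟩ : K)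
      rw [Nat.card_eq_fintype_card]
      exact congrArg Subtype.val this
    have h1K : 1 < Nat.card K := by
      rw [Nat.card_eq_fintype_card]; exact Fintype.one_lt_card
    -- adjoint closed
    have hKcl : AClosed f K := by
      intro x hx
      obtain ⟨x', hx', hadj⟩ := hCl x (hKC hx)
      refine ⟨x', ?_, hadj⟩
      apply mem_of_pow_card hCF hKC hpow h1K hx'
      have h2 : ∀ k : ℕ, Adj f (x ^ k) (x' ^ k) := by
        intro k
        induction k with
        | zero => rw [pow_zero, pow_zero]; exact Adj.one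
        | succ k ih =>
          have := Adj.mul ih hadj
          rwa [← pow_succ, ← pow_succ'] at this
      have h3 := h2 (Nat.card K)
      rw [hpow x hx] at h3
      exact Adj.unique h h3 hadj
    choose ad had1 had2 using hKcl
    let K' : Subalgebra F (Matrix (Fin n) (Fin n) F) := K.comap (tl n F : _ →ₐ[F] _)
    have hK'mem : ∀ m, m ∈ K' ↔ tl n F m ∈ K := fun m => Iff.rfl
    refine ⟨r, K', hr, ?_, ⟨?_, ?_, ?_⟩, ?_, ?_⟩
    · intro hτ
      rcases hr.eq_two_or_odd' with h2 | h2
      · exfalso
        subst h2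
        let α : K →+* K :=
          { toFun := fun x => ⟨ad x x.2, had1 x x.2⟩
            map_one' := Subtype.ext (Adj.unique h (had2 1 K.one_mem) Adj.one)
            map_mul' := fun x y => Subtype.ext (by
              have e1 := Adj.mul (had2 x x.2) (had2 y y.2)
              have e2 := had2 ((x * y : K) : Module.End F (Fin n → F)) (x * y).2
              have e3 := Adj.unique h e2 e1
              show ad ((x * y : K) : Module.End F (Fin n → F)) _ = ad x x.2 * ad y y.2
              rw [e3]
              exact hKc _ (had1 y y.2) _ (had1 x x.2))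
            map_zero' := Subtype.ext (Adj.unique h (had2 0 K.zero_mem) (Adj.zero h))
            map_add' := fun x y => Subtype.ext (Adj.unique h (had2 _ (x + y).2)
              (Adj.add h (had2 x x.2) (had2 y y.2))) }
        have hα2 : ∀ x, α (α x) = x := by
          intro x
          apply Subtype.ext
          exact Adj.unique h (had2 _ (α x).2) (Adj.symm h (had2 x x.2))
        have hαF : ∀ c : F, α (algebraMap F K c) = algebraMap F K (τ c) := by
          intro c
          apply Subtype.ext
          refine Adj.unique h (had2 _ (algebraMap F K c).2) ?_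
          intro u v
          show f (c • u) v = f u (τ c • v)
          rw [h.smul_left, h.smul_right, h.inv]
        obtain ⟨s, hs, hαs⟩ := Cfsg.Agent.H5.Herm.sigma_eq α (by
          intro hid
          apply hτ
          ext c
          have e1 := hαF c
          rw [hid] at e1
          exact ((algebraMap F K).injective e1).symm) hα2
        have hsF : s = Fintype.card F := by
          rw [hcardK] at hs
          exact (Nat.pow_left_injective (n := 2) (by norm_num) hs).symm
        apply hτ
        ext c
        have e1 := hαF c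
        rw [hαs, ← map_pow, hsF, FiniteField.pow_card] at e1
        exact ((algebraMap F K).injective e1).symm
      · exact h2
    · intro x hx y hy
      apply (tl n F).injective
      rw [map_mul, map_mul]
      exact hKc _ hx _ hy
    · intro x hx hx0
      obtain ⟨y, hy, hxy⟩ := hKi (tl n F x) hx (by
        intro h
        exact hx0 ((tl n F).injective (by rw [h, map_zero])))
      refine ⟨(tl n F).symm y, ?_, ?_⟩
      · rw [hK'mem, AlgEquiv.apply_symm_apply]
        exact hy
      · apply (tl n F).injective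
        rw [map_mul, AlgEquiv.apply_symm_apply, hxy, map_one]
    · rw [← hKr]
      let eK : K' ≃ₗ[F] K :=
        { toFun := fun x => ⟨tl n F x, x.2⟩
          map_add' := by intro x y; exact Subtype.ext (map_add (tl n F) _ _)
          map_smul' := by intro c x; exact Subtype.ext (map_smul (tl n F) _ _)
          invFun := fun y => ⟨(tl n F).symm y, by
            rw [hK'mem, AlgEquiv.apply_symm_apply]; exact y.2⟩
          left_inv := fun x => Subtype.ext ((tl n F).symm_apply_apply _)
          right_inv := fun y => Subtype.ext ((tl n F).apply_symm_apply _) }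
      exact eK.finrank_eq
    · intro k hk
      refine ⟨(tl n F).symm (ad (tl n F k) hk), ?_, ?_⟩
      · rw [hK'mem, AlgEquiv.apply_symm_apply]
        exact had1 _ hk
      · intro u v
        have e1 := had2 (tl n F k) hk u v
        have e2 : (tl n F ((tl n F).symm (ad (tl n F k) hk))) v = ad (tl n F k) hk v := by
          rw [AlgEquiv.apply_symm_apply]
        rw [← e2] at e1
        exact e1
    · intro g hg k
      constructor
      · intro hk
        rw [hK'mem, ← cjA_tl]
        exact hKσ _ (hGC g hg) _ hk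
      · intro hk
        rw [hK'mem, ← cjA_tl] at hk
        have := hKσ _ (hGC g⁻¹ (G.inv_mem hg)) _ hk
        rw [cjA_self_inv] at this
        exact this
  · left
    intro z hz
    have h2 : finrank F C = 1 := by
      have : 0 < finrank F C := by
        haveI : Nontrivial C := ⟨0, 1, fun h => zero_ne_one (congrArg Subtype.val h)⟩
        exact Module.finrank_pos (R := F) (M := C)
      omega
    rw [finrank_eq_one_iff_of_nonzero' (1 : C) (by
      intro h
      have h0 : (1 : Module.End F (Fin n → F)) = 0 := congrArg Subtype.val h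
      exact one_ne_zero h0)] at h2
    obtain ⟨c, hc⟩ := h2 ⟨z, hz⟩
    exact ⟨c, (congrArg Subtype.val hc).symm⟩

end Cfsg.Agent.H29.Fm
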