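import Mathlib
import Cfsg.Agent.H29_Fm4

set_option autoImplicit false

/-! tensor decompositions and forms -/

namespace Cfsg.Agent.H29.Fm

open Matrix Module Cfsg.Geo Cfsg.Agent.H29.Clifford Cfsg.Agent.H29.Asc Cfsg.Agent.H29.AscF Cfsg.Agent.H29.Trv
open scoped Kronecker

variable {F : Type*} [Field F] {n : ℕ}
variable {τ : F ≃+* F} {ε : F} {f : (Fin n → F) → (Fin n → F) → F}

/-- Main lemma: a group normalising a matrix algebra preserves a tensor decomposition (with basis). -/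
theorem tensor_basis (R : Subalgebra F (Module.End F (Fin n → F))) {w : ℕ}
    (hw : 0 < w) (e : R ≃ₐ[F] Matrix (Fin w) (Fin w) F) :
    ∃ (t : ℕ) (ε : Fin n ≃ Fin w × Fin t) (P : GL (Fin n) F) (b : Module.Basis (Fin w × Fin t) F (Fin n → F)),
      w * t = n ∧ (∀ i, (P : Matrix (Fin n) (Fin n) F) *ᵥ (Pi.single i 1) = b (ε i)) ∧
      (∀ x k l, (e.symm x : Module.End F (Fin n → F)) (b (k, l)) = ∑ i, x i k • b (i, l)) ∧
      ∀ g : GL (Fin n) F, Normalises R (glEquiv g) → g ∈ tensorProductSubgroup w t ε P := by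
  classical
  let φ : Matrix (Fin w) (Fin w) F →ₐ[F] Module.End F (Fin n → F) := R.val.comp e.symm.toAlgHom
  have hφ : ∀ x, φ x = (e.symm x : Module.End F (Fin n → F)) := fun x => rfl
  obtain ⟨t, b, hb⟩ := exists_basis_of_rep (⟨0, hw⟩ : Fin w) φ
  have hcard := card_eq_of_basis b
  rw [Fintype.card_prod, Fintype.card_fin, Fintype.card_fin] at hcard
  let ε : Fin n ≃ Fin w × Fin t := (Fintype.equivOfCardEq (by
    rw [Fintype.card_prod, Fintype.card_fin, Fintype.card_fin, Fintype.card_fin, hcard]))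
  obtain ⟨P, hP⟩ := exists_GL_basis b ε
  refine ⟨t, ε, P, b, hcard, hP, fun x k l => phi_form φ b hb x k l, fun g hg => ?_⟩
  obtain ⟨a, ha⟩ := exists_inner R e g hg
  -- the commuting part
  let u : Module.End F (Fin n → F) := φ ((a⁻¹ : GL (Fin w) F) : Matrix (Fin w) (Fin w) F) *
    tl n F (g : Matrix (Fin n) (Fin n) F)
  have hgl : tl n F (g : Matrix (Fin n) (Fin n) F) * tl n F ((g⁻¹ : GL (Fin n) F) : Matrix (Fin n) (Fin n) F) = 1 := by
    rw [← map_mul, ← Units.val_mul, mul_inv_cancel, Units.val_one, map_one]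
  have hgl' : tl n F ((g⁻¹ : GL (Fin n) F) : Matrix (Fin n) (Fin n) F) * tl n F (g : Matrix (Fin n) (Fin n) F) = 1 := by
    rw [← map_mul, ← Units.val_mul, inv_mul_cancel, Units.val_one, map_one]
  have hcj : ∀ r, cjA g r * tl n F (g : Matrix (Fin n) (Fin n) F) = tl n F (g : Matrix (Fin n) (Fin n) F) * r := by
    intro r
    have h1 : cjA g r = tl n F (g : Matrix (Fin n) (Fin n) F) * r * tl n F ((g⁻¹ : GL (Fin n) F) : Matrix (Fin n) (Fin n) F) := rfl
    rw [h1, mul_assoc, hgl', mul_one]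
  have hu : ∀ x, u * φ x = φ x * u := by
    intro x
    have h1 := hcj (φ x)
    have h2 : cjA g (φ x) = φ ((a : Matrix (Fin w) (Fin w) F) * x * ((a⁻¹ : GL (Fin w) F) : Matrix (Fin w) (Fin w) F)) := ha x
    rw [h2] at h1
    show φ _ * tl n F _ * φ x = φ x * (φ _ * tl n F _)
    have h3 : ((a⁻¹ : GL (Fin w) F) : Matrix (Fin w) (Fin w) F) * ((a : Matrix (Fin w) (Fin w) F) * x *
        ((a⁻¹ : GL (Fin w) F) : Matrix (Fin w) (Fin w) F)) = x * ((a⁻¹ : GL (Fin w) F) : Matrix (Fin w) (Fin w) F) := by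
      rw [← mul_assoc, ← mul_assoc, ← Units.val_mul, inv_mul_cancel, Units.val_one, one_mul]
    rw [mul_assoc, ← h1, ← mul_assoc, ← map_mul, h3, map_mul, mul_assoc]
  obtain ⟨c, hc⟩ := commuting_form hw φ b hb u hu
  have hgb : ∀ k l, (g : Matrix (Fin n) (Fin n) F) *ᵥ (b (k, l)) =
      ∑ i, ∑ j, ((a : Matrix (Fin w) (Fin w) F) i k * c j l) • b (i, j) := by
    intro k l
    have h1 : tl n F (g : Matrix (Fin n) (Fin n) F) = φ (a : Matrix (Fin w) (Fin w) F) * u := by
      show _ = φ _ * (φ _ * tl n F _)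
      rw [← mul_assoc, ← map_mul, ← Units.val_mul, mul_inv_cancel, Units.val_one, map_one, one_mul]
    have h2 : (g : Matrix (Fin n) (Fin n) F) *ᵥ (b (k, l)) = tl n F (g : Matrix (Fin n) (Fin n) F) (b (k, l)) := rfl
    rw [h2, h1, Module.End.mul_apply, hc, map_sum, Finset.sum_comm]
    apply Finset.sum_congr rfl
    intro j _
    rw [map_smul, phi_form φ b hb, Finset.smul_sum]
    apply Finset.sum_congr rfl
    intro i _
    rw [smul_smul, mul_comm]
  -- matrix identity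
  let K : Matrix (Fin w × Fin t) (Fin w × Fin t) F := (a : Matrix (Fin w) (Fin w) F) ⊗ₖ c
  have hmat : (g : Matrix (Fin n) (Fin n) F) * (P : Matrix (Fin n) (Fin n) F) =
      (P : Matrix (Fin n) (Fin n) F) * K.submatrix ε ε := by
    have hcol : ∀ i, (P : Matrix (Fin n) (Fin n) F) *ᵥ (Pi.single i 1) = b (ε i) := hP
    apply Matrix.toLin'.injective
    apply (Pi.basisFun F (Fin n)).ext
    intro k
    rw [Pi.basisFun_apply, Matrix.toLin'_apply, Matrix.toLin'_apply, ← Matrix.mulVec_mulVec,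
      ← Matrix.mulVec_mulVec, hcol]
    have h1 : ε k = ((ε k).1, (ε k).2) := rfl
    rw [h1, hgb]
    have h2 : (K.submatrix ε ε) *ᵥ (Pi.single k 1) = ∑ i, K (ε i) (ε k) • (Pi.single i (1 : F) : Fin n → F) := by
      funext j
      rw [Matrix.mulVec_single_one]
      simp [Finset.sum_apply, Pi.single_apply]
    rw [h2]
    have h3 : ∀ (s : Finset (Fin n)) (v : Fin n → (Fin n → F)),
        (P : Matrix (Fin n) (Fin n) F) *ᵥ (∑ i ∈ s, v i) = ∑ i ∈ s, (P : Matrix (Fin n) (Fin n) F) *ᵥ (v i) :=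
      fun s v => map_sum (Matrix.mulVecLin (P : Matrix (Fin n) (Fin n) F)) v s
    rw [h3]
    simp only [Matrix.mulVec_smul, hcol]
    rw [← Equiv.sum_comp ε.symm, Fintype.sum_prod_type]
    apply Finset.sum_congr rfl
    intro i _
    apply Finset.sum_congr rfl
    intro j _
    rw [ε.apply_symm_apply]
    rfl
  have hPP : (P : Matrix (Fin n) (Fin n) F) * ((P⁻¹ : GL (Fin n) F) : Matrix (Fin n) (Fin n) F) = 1 := by
    rw [← Units.val_mul, mul_inv_cancel, Units.val_one]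
  have hdet : K.det ≠ 0 := by
    have h1 : (K.submatrix ε ε).det = K.det := Matrix.det_submatrix_equiv_self ε K
    intro h0
    have h2 := congrArg Matrix.det hmat
    rw [Matrix.det_mul, Matrix.det_mul, h1, h0, mul_zero] at h2
    have h3 : (g : Matrix (Fin n) (Fin n) F).det ≠ 0 := by
      have := (Matrix.GeneralLinearGroup.det g).ne_zero
      simpa using this
    have h4 : (P : Matrix (Fin n) (Fin n) F).det ≠ 0 := by
      have := (Matrix.GeneralLinearGroup.det P).ne_zero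
      simpa using this
    exact mul_ne_zero h3 h4 h2
  have hcdet : c.det ≠ 0 := by
    intro h0
    apply hdet
    show ((a : Matrix (Fin w) (Fin w) F) ⊗ₖ c).det = 0
    rw [Matrix.det_kronecker, h0, Fintype.card_fin, Fintype.card_fin, zero_pow hw.ne', mul_zero]
  let c' : GL (Fin t) F := Matrix.GeneralLinearGroup.mkOfDetNeZero c hcdet
  let K' : GL (Fin w × Fin t) F := Matrix.GeneralLinearGroup.mkOfDetNeZero K hdet
  refine ⟨glReindex ε.symm K', ⟨K', ⟨a, c', rfl⟩, rfl⟩, ?_⟩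
  apply Units.ext
  show (P : Matrix (Fin n) (Fin n) F) * K.submatrix ε ε * ((P⁻¹ : GL (Fin n) F) : Matrix (Fin n) (Fin n) F) = g
  rw [← hmat, mul_assoc, hPP, mul_one]

/-- gram matrices: a block form compatible with all matrices is a multiple of one invertible matrix -/
theorem gram_scalar {w : ℕ} {I : Type*} (Γ : I → Matrix (Fin w) (Fin w) F) (τ : F ≃+* F)
    (hinv : ∀ a, τ (τ a) = a)
    (h1 : ∀ x : Matrix (Fin w) (Fin w) F, ∃ y : Matrix (Fin w) (Fin w) F, ∀ i, xᵀ * Γ i = Γ i * y.map τ)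
    (h2 : ∀ y : Matrix (Fin w) (Fin w) F, ∃ x : Matrix (Fin w) (Fin w) F, ∀ i, xᵀ * Γ i = Γ i * y.map τ)
    (i₀ : I) (h0 : Γ i₀ ≠ 0) : (Γ i₀).det ≠ 0 ∧ ∃ c : I → F, ∀ i, Γ i = c i • Γ i₀ := by
  classical
  have hdet : (Γ i₀).det ≠ 0 := by
    intro hd
    obtain ⟨v, hv, hv0⟩ := Matrix.exists_mulVec_eq_zero_iff.2 hd
    apply h0
    have key : ∀ u : Fin w → F, Γ i₀ *ᵥ u = 0 := by
      intro u
      obtain ⟨k, hk⟩ : ∃ k, v k ≠ 0 := by
        by_contra hcon
        push Not at hcon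
        exact hv (funext hcon)
      let M : Matrix (Fin w) (Fin w) F := Matrix.vecMulVec u (Pi.single k (v k)⁻¹)
      have hM : M *ᵥ v = u := by
        funext i
        show ∑ j, u i * (Pi.single k (v k)⁻¹ : Fin w → F) j * v j = u i
        rw [Finset.sum_eq_single k]
        · rw [Pi.single_eq_same, mul_assoc, inv_mul_cancel₀ hk, mul_one]
        · intro j _ hj
          rw [Pi.single_eq_of_ne hj, mul_zero, zero_mul]
        · intro h; exact absurd (Finset.mem_univ _) h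
      obtain ⟨x, hx⟩ := h2 (M.map τ)
      have e1 : (M.map τ).map τ = M := by
        ext i j; exact hinv _
      have e2 := hx i₀
      rw [e1] at e2
      rw [← hM, Matrix.mulVec_mulVec, ← e2, ← Matrix.mulVec_mulVec, hv0, Matrix.mulVec_zero]
    ext i j
    have := congrFun (key (Pi.single j 1)) i
    rwa [Matrix.mulVec_single_one] at this
  refine ⟨hdet, ?_⟩
  have hu : IsUnit (Γ i₀).det := isUnit_iff_ne_zero.2 hdet
  have hcomm : ∀ i, ∀ x : Matrix (Fin w) (Fin w) F, Commute (Γ i * (Γ i₀)⁻¹) x := by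
    intro i x
    obtain ⟨y, hy⟩ := h1 xᵀ
    have e1 := hy i
    have e2 := hy i₀
    rw [Matrix.transpose_transpose] at e1 e2
    show Γ i * (Γ i₀)⁻¹ * x = x * (Γ i * (Γ i₀)⁻¹)
    have e3 : (Γ i₀)⁻¹ * x = y.map τ * (Γ i₀)⁻¹ := by
      calc (Γ i₀)⁻¹ * x = (Γ i₀)⁻¹ * (x * Γ i₀) * (Γ i₀)⁻¹ := by
            rw [mul_assoc, mul_assoc, Matrix.mul_nonsing_inv _ hu, mul_one]
        _ = (Γ i₀)⁻¹ * (Γ i₀ * y.map τ) * (Γ i₀)⁻¹ := by rw [e2]
        _ = y.map τ * (Γ i₀)⁻¹ := by rw [← mul_assoc (Γ i₀)⁻¹, Matrix.nonsing_inv_mul _ hu, one_mul]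
    rw [mul_assoc, e3, ← mul_assoc, ← e1, mul_assoc]
  have hsc : ∀ i, ∃ c : F, Γ i = c • Γ i₀ := by
    intro i
    have h3 : Γ i * (Γ i₀)⁻¹ ∈ Set.range (Matrix.scalar (Fin w) : F → Matrix (Fin w) (Fin w) F) := by
      apply Matrix.mem_range_scalar_of_commute_single
      intro a b _
      exact (hcomm i _).symm
    obtain ⟨c, hc⟩ := h3
    refine ⟨c, ?_⟩
    calc Γ i = Γ i * (Γ i₀)⁻¹ * Γ i₀ := by rw [mul_assoc, Matrix.nonsing_inv_mul _ hu, mul_one]
      _ = c • Γ i₀ := by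
        rw [← hc, Matrix.scalar_apply, ← Matrix.smul_one_eq_diagonal, Matrix.smul_mul, one_mul]
  choose c hc using hsc
  exact ⟨c, hc⟩

end Cfsg.Agent.H29.Fm
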