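import Mathlib
import Cfsg.Agent.H29_Fm5

set_option autoImplicit false

/-! tensor decompositions and forms, II -/

namespace Cfsg.Agent.H29.Fm

open Matrix Module Cfsg.Geo Cfsg.Agent.H29.Clifford Cfsg.Agent.H29.Asc Cfsg.Agent.H29.AscF Cfsg.Agent.H29.Trv
open scoped Kronecker

variable {F : Type*} [Field F] {n : ℕ}
variable {τ : F ≃+* F} {ε : F} {f : (Fin n → F) → (Fin n → F) → F}

/-- hermitian matrices up to sign -/
def HM {κ : Type*} (τ : F ≃+* F) (δ : F) (A : Matrix κ κ F) : Prop := ∀ i j, A i j = δ * τ (A j i)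

theorem gram_formOfGram {κ : Type} [Fintype κ] [DecidableEq κ] (τ : F ≃+* F) (A : Matrix κ κ F) :
    gramMatrix (formOfGram τ A) = A := by
  ext a b
  show ∑ i, ∑ j, (Pi.single a (1 : F) : κ → F) i * A i j * τ ((Pi.single b (1 : F) : κ → F) j) = A a b
  rw [Finset.sum_eq_single a]
  · rw [Finset.sum_eq_single b]
    · rw [Pi.single_eq_same, Pi.single_eq_same, map_one, mul_one, one_mul]
    · intro j _ hj
      rw [Pi.single_eq_of_ne hj, map_zero, mul_zero]
    · intro h; exact absurd (Finset.mem_univ _) h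
  · intro i _ hi
    apply Finset.sum_eq_zero
    intro j _
    rw [Pi.single_eq_of_ne hi, zero_mul, zero_mul]
  · intro h; exact absurd (Finset.mem_univ _) h

theorem formOfGram_eq {κ : Type} [Fintype κ] (τ : F ≃+* F) (A : Matrix κ κ F) (x y : κ → F) :
    formOfGram τ A x y = x ⬝ᵥ (A *ᵥ (fun i => τ (y i))) := by
  show ∑ i, ∑ j, x i * A i j * τ (y j) = ∑ i, x i * ∑ j, A i j * τ (y j)
  apply Finset.sum_congr rfl
  intro i _
  rw [Finset.mul_sum]
  apply Finset.sum_congr rfl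
  intro j _
  rw [mul_assoc]

theorem SFm_gram {w : ℕ} {δ : F} (hδ : δ = 1 ∨ δ = -1) (hinv : ∀ a, τ (τ a) = a) {A : Matrix (Fin w) (Fin w) F}
    (hA : HM τ δ A) (hdet : A.det ≠ 0) : SFm τ δ (formOfGram τ A) where
  eps := hδ
  inv := hinv
  add_left := by
    intro x y v
    rw [formOfGram_eq, formOfGram_eq, formOfGram_eq, add_dotProduct]
  smul_left := by
    intro c x v
    rw [formOfGram_eq, formOfGram_eq, smul_dotProduct, smul_eq_mul]
  herm := by
    intro u v
    have hδ' : τ δ = δ := by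
      rcases hδ with rfl | rfl
      · exact map_one τ
      · rw [map_neg, map_one]
    show ∑ i, ∑ j, u i * A i j * τ (v j) = δ * τ (∑ i, ∑ j, v i * A i j * τ (u j))
    rw [map_sum, Finset.mul_sum, Finset.sum_comm]
    apply Finset.sum_congr rfl
    intro j _
    rw [map_sum, Finset.mul_sum]
    apply Finset.sum_congr rfl
    intro i _
    rw [map_mul, map_mul, hinv, hA i j]
    ring
  nd := by
    intro v hv
    by_contra hcon
    push Not at hcon
    apply hdet
    rw [← Matrix.exists_mulVec_eq_zero_iff]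
    refine ⟨fun i => τ (v i), ?_, ?_⟩
    · intro h0
      apply hv
      funext i
      have := congrFun h0 i
      exact (map_eq_zero τ).1 this
    · funext i
      have := hcon (Pi.single i 1)
      rw [formOfGram_eq, single_dotProduct, one_mul] at this
      exact this

/-- the gram matrix of a form compatible with a matrix algebra is a Kronecker product -/
theorem tensor_gram (h : SFm τ ε f) {R : Subalgebra F (Module.End F (Fin n → F))} (hR : AClosed f R) {w t : ℕ}
    (hn : 0 < n) (e : R ≃ₐ[F] Matrix (Fin w) (Fin w) F) (b : Module.Basis (Fin w × Fin t) F (Fin n → F))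
    (hb : ∀ x k l, (e.symm x : Module.End F (Fin n → F)) (b (k, l)) = ∑ i, x i k • b (i, l)) :
    ∃ (A : Matrix (Fin w) (Fin w) F) (C : Matrix (Fin t) (Fin t) F), A.det ≠ 0 ∧ C.det ≠ 0 ∧
      ∀ i l j m, f (b (i, l)) (b (j, m)) = A i j * C l m := by
  classical
  let Γ : Fin t × Fin t → Matrix (Fin w) (Fin w) F := fun p i j => f (b (i, p.1)) (b (j, p.2))
  have hrel : ∀ x y : Matrix (Fin w) (Fin w) F,
      Adj f (e.symm x : Module.End F (Fin n → F)) (e.symm y : Module.End F (Fin n → F)) →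
      ∀ p, xᵀ * Γ p = Γ p * y.map τ := by
    intro x y hxy p
    ext k j
    have h1 := hxy (b (k, p.1)) (b (j, p.2))
    rw [hb, hb, h.sum_left, h.sum_right] at h1
    rw [Matrix.mul_apply, Matrix.mul_apply]
    calc ∑ i, xᵀ k i * Γ p i j = ∑ i, f (x i k • b (i, p.1)) (b (j, p.2)) := by
          apply Finset.sum_congr rfl
          intro i _
          rw [h.smul_left]
          rfl
      _ = ∑ i, f (b (k, p.1)) (y i j • b (i, p.2)) := h1
      _ = ∑ i, Γ p k i * (y.map τ) i j := by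
          apply Finset.sum_congr rfl
          intro i _
          rw [h.smul_right, mul_comm]
          rfl
  have hsurj : ∀ r ∈ R, ∃ x, (e.symm x : Module.End F (Fin n → F)) = r := by
    intro r hr
    exact ⟨e ⟨r, hr⟩, by rw [AlgEquiv.symm_apply_apply]⟩
  have h1 : ∀ x : Matrix (Fin w) (Fin w) F, ∃ y : Matrix (Fin w) (Fin w) F, ∀ p, xᵀ * Γ p = Γ p * y.map τ := by
    intro x
    obtain ⟨r, hr, hadj⟩ := hR (e.symm x) (e.symm x).2
    obtain ⟨y, hy⟩ := hsurj r hr
    exact ⟨y, hrel x y (by rw [hy]; exact hadj)⟩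
  have h2 : ∀ y : Matrix (Fin w) (Fin w) F, ∃ x : Matrix (Fin w) (Fin w) F, ∀ p, xᵀ * Γ p = Γ p * y.map τ := by
    intro y
    obtain ⟨r, hr, hadj⟩ := hR (e.symm y) (e.symm y).2
    obtain ⟨x, hx⟩ := hsurj r hr
    exact ⟨x, hrel x y (by rw [hx]; exact Adj.symm h hadj)⟩
  have h3 : ∃ p, Γ p ≠ 0 := by
    by_contra hcon
    push Not at hcon
    have hall : ∀ u v, f u v = 0 := by
      intro u v
      rw [← b.sum_repr u, ← b.sum_repr v, h.sum_left]
      apply Finset.sum_eq_zero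
      rintro ⟨i, l⟩ _
      rw [h.sum_right]
      apply Finset.sum_eq_zero
      rintro ⟨j, m⟩ _
      rw [h.smul_left, h.smul_right]
      have := congrFun (congrFun (hcon (l, m)) i) j
      have e1 : f (b (i, l)) (b (j, m)) = 0 := this
      rw [e1, mul_zero, mul_zero]
    obtain ⟨x, hx⟩ := h.nd (Pi.single ⟨0, hn⟩ 1) (by
      intro h0
      have := congrFun h0 ⟨0, hn⟩
      rw [Pi.single_eq_same] at this
      exact one_ne_zero this)
    exact hx (hall _ _)
  obtain ⟨p₀, hp₀⟩ := h3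
  obtain ⟨hdet, c, hc⟩ := gram_scalar Γ τ h.inv h1 h2 p₀ hp₀
  have hf : ∀ i l j m, f (b (i, l)) (b (j, m)) = Γ p₀ i j * c (l, m) := by
    intro i l j m
    have := congrFun (congrFun (hc (l, m)) i) j
    rw [mul_comm]
    exact this
  refine ⟨Γ p₀, fun l m => c (l, m), hdet, ?_, hf⟩
  intro h0
  obtain ⟨v, hv, hv0⟩ := Matrix.exists_mulVec_eq_zero_iff.2 h0
  have hw : 0 < w := by
    rcases Nat.eq_zero_or_pos w with hw | hw
    · subst hw
      exfalso
      have := card_eq_of_basis b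
      rw [Fintype.card_prod, Fintype.card_fin, zero_mul] at this
      omega
    · exact hw
  let u : Fin n → F := ∑ m, τ (v m) • b (⟨0, hw⟩, m)
  have hu0 : u ≠ 0 := by
    intro hu
    apply hv
    funext m
    have h5 : LinearIndependent F (fun m => b ((⟨0, hw⟩ : Fin w), m)) :=
      b.linearIndependent.comp (fun m => ((⟨0, hw⟩ : Fin w), m)) (by
        intro a b hab
        exact (Prod.mk.inj hab).2)
    have h6 := Fintype.linearIndependent_iff.1 h5 (fun m => τ (v m)) hu m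
    exact (map_eq_zero τ).1 h6
  obtain ⟨x, hx⟩ := h.nd u hu0
  apply hx
  rw [← b.sum_repr x, h.sum_left]
  apply Finset.sum_eq_zero
  rintro ⟨i, l⟩ _
  rw [h.smul_left, h.sum_right]
  have h7 : ∑ m, f (b (i, l)) (τ (v m) • b (⟨0, hw⟩, m)) = 0 := by
    have h8 : ∀ m, f (b (i, l)) (τ (v m) • b (⟨0, hw⟩, m)) = Γ p₀ i ⟨0, hw⟩ * (c (l, m) * v m) := by
      intro m
      rw [h.smul_right, h.inv, hf]
      ring
    rw [Finset.sum_congr rfl (fun m _ => h8 m), ← Finset.mul_sum]
    have h9 := congrFun hv0 l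
    have h10 : ∑ m, c (l, m) * v m = 0 := h9
    rw [h10, mul_zero]
  rw [h7, mul_zero]

/-- splitting the hermitian condition -/
theorem herm_split {κ μ : Type*} {A : Matrix κ κ F} {C : Matrix μ μ F} (hinv : ∀ a, τ (τ a) = a)
    (hε : ε = 1 ∨ ε = -1) {i₀ j₀ : κ} {l₀ m₀ : μ} (hA : A i₀ j₀ ≠ 0) (hC : C l₀ m₀ ≠ 0)
    (H : ∀ i l j m, A i j * C l m = ε * τ (A j i * C m l)) :
    ∃ (d δ₁ δ₂ : F), d ≠ 0 ∧ (δ₁ = 1 ∨ δ₁ = -1) ∧ (δ₂ = 1 ∨ δ₂ = -1) ∧ δ₁ * δ₂ = ε ∧
      (τ ≠ RingEquiv.refl F → δ₁ = 1) ∧ HM τ δ₁ (d • A) ∧ HM τ δ₂ (d⁻¹ • C) := by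
  have hε2 : ε * ε = 1 := by
    rcases hε with rfl | rfl
    · exact one_mul 1
    · rw [neg_mul_neg, one_mul]
  have hε0 : ε ≠ 0 := by
    intro h0
    rw [h0, zero_mul] at hε2
    exact zero_ne_one hε2
  obtain ⟨δ, hδA, hδδ⟩ : ∃ δ, (∀ i j, A i j = δ * τ (A j i)) ∧ δ * τ δ = 1 := by
    have h1 : ∀ i j, A i j = (ε * τ (C m₀ l₀) * (C l₀ m₀)⁻¹) * τ (A j i) := by
      intro i j
      have := H i l₀ j m₀
      rw [map_mul] at this
      field_simp
      rw [this]
      ring
    refine ⟨_, h1, ?_⟩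
    set δ := ε * τ (C m₀ l₀) * (C l₀ m₀)⁻¹
    have h2 := h1 i₀ j₀
    rw [h1 j₀ i₀, map_mul, hinv] at h2
    have h3 : (δ * τ δ - 1) * A i₀ j₀ = 0 := by linear_combination -h2
    exact sub_eq_zero.1 ((mul_eq_zero.1 h3).resolve_right hA)
  have hδ0 : δ ≠ 0 := by
    intro h0
    rw [h0, zero_mul] at hδδ
    exact zero_ne_one hδδ
  have hδC : ∀ l m, C l m = ε * δ⁻¹ * τ (C m l) := by
    intro l m
    have h1 := H i₀ l j₀ m
    rw [map_mul] at h1
    have h2 := hδA i₀ j₀
    have h3 : τ (A j₀ i₀) = δ⁻¹ * A i₀ j₀ := by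
      rw [h2, ← mul_assoc, inv_mul_cancel₀ hδ0, one_mul]
    rw [h3] at h1
    have h4 : A i₀ j₀ * (C l m - ε * δ⁻¹ * τ (C m l)) = 0 := by linear_combination h1
    exact sub_eq_zero.1 ((mul_eq_zero.1 h4).resolve_left hA)
  by_cases hτ : τ = RingEquiv.refl F
  · subst hτ
    have hδ2 : δ * δ = 1 := hδδ
    have hδ1 : δ = 1 ∨ δ = -1 := by
      have : (δ - 1) * (δ + 1) = 0 := by linear_combination hδ2
      rcases mul_eq_zero.1 this with h | h
      · left; exact sub_eq_zero.1 h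
      · right; exact eq_neg_of_add_eq_zero_left h
    have hinv' : δ⁻¹ = δ := by
      rw [inv_eq_iff_eq_inv]
      exact eq_inv_of_mul_eq_one_left hδ2
    refine ⟨1, δ, ε * δ, one_ne_zero, hδ1, ?_, ?_, fun h => absurd rfl h, ?_, ?_⟩
    · rcases hε with rfl | rfl
      · rw [one_mul]; exact hδ1
      · rcases hδ1 with h | h
        · right; rw [h, mul_one]
        · left; rw [h, neg_mul_neg, one_mul]
    · rw [mul_left_comm, hδ2, mul_one]
    · intro i j
      rw [one_smul]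
      exact hδA i j
    · intro l m
      rw [inv_one, one_smul]
      have := hδC l m
      rwa [hinv'] at this
  · obtain ⟨d, hd0, hd⟩ := h90 hτ hinv hδδ
    refine ⟨d, 1, ε, hd0, Or.inl rfl, hε, one_mul _, fun _ => rfl, ?_, ?_⟩
    · intro i j
      rw [Matrix.smul_apply, Matrix.smul_apply, smul_eq_mul, smul_eq_mul, map_mul, hd, hδA i j]
      ring
    · intro l m
      rw [Matrix.smul_apply, Matrix.smul_apply, smul_eq_mul, smul_eq_mul, map_mul, map_inv₀, hd, hδC l m]
      rw [mul_inv]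
      ring

/-- the structure of the form in coordinates -/
theorem form_coord (h : SFm τ ε f) {κ : Type} [Fintype κ] [DecidableEq κ] (b : Module.Basis κ F (Fin n → F))
    (e : Fin n ≃ κ) (P : GL (Fin n) F) (hP : ∀ i, (P : Matrix (Fin n) (Fin n) F) *ᵥ (Pi.single i 1) = b (e i))
    (x y : κ → F) :
    f ((P : Matrix (Fin n) (Fin n) F) *ᵥ (x ∘ e)) ((P : Matrix (Fin n) (Fin n) F) *ᵥ (y ∘ e)) =
      ∑ a, ∑ c, x a * f (b a) (b c) * τ (y c) := by
  have key : ∀ x : κ → F, (P : Matrix (Fin n) (Fin n) F) *ᵥ (x ∘ e) = ∑ a, x a • b a := by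
    intro x
    have h1 : (x ∘ e) = ∑ i, x (e i) • (Pi.single i (1 : F) : Fin n → F) := by
      funext j
      rw [Finset.sum_apply, Finset.sum_eq_single j]
      · rw [Pi.smul_apply, Pi.single_eq_same, smul_eq_mul, mul_one]; rfl
      · intro i _ hi
        rw [Pi.smul_apply, Pi.single_eq_of_ne (Ne.symm hi), smul_zero]
      · intro h; exact absurd (Finset.mem_univ _) h
    have h3 : ∀ (s : Finset (Fin n)) (v : Fin n → (Fin n → F)),
        (P : Matrix (Fin n) (Fin n) F) *ᵥ (∑ i ∈ s, v i) = ∑ i ∈ s, (P : Matrix (Fin n) (Fin n) F) *ᵥ (v i) :=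
      fun s v => map_sum (Matrix.mulVecLin (P : Matrix (Fin n) (Fin n) F)) v s
    rw [h1, h3]
    simp only [Matrix.mulVec_smul, hP]
    exact Equiv.sum_comp e (fun a => x a • b a)
  rw [key, key, h.sum_left]
  apply Finset.sum_congr rfl
  intro a _
  rw [h.sum_right]
  apply Finset.sum_congr rfl
  intro c _
  rw [h.smul_left, h.smul_right]
  ring

end Cfsg.Agent.H29.Fm
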