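import Mathlib
import Cfsg.Agent.H29_Fm6

set_option autoImplicit false

/-! tensor powers and forms -/

namespace Cfsg.Agent.H29.Fm

open Matrix Module Cfsg.Geo Cfsg.Agent.H29.Clifford Cfsg.Agent.H29.Asc Cfsg.Agent.H29.AscF Cfsg.Agent.H29.Trv
  Cfsg.Agent.H29.AscT
open scoped Kronecker

variable {F : Type*} [Field F] {n k m : ℕ}
variable {τ : F ≃+* F} {ε : F} {f : (Fin n → F) → (Fin n → F) → F}

/-- changing the basis by a pure tensor does not change the wreath subgroup -/
theorem wreath_conj (e : Fin n ≃ (Fin k → Fin m)) (Q : GL (Fin n) F) (A : Fin k → GL (Fin m) F) :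
    tensorWreathSubgroup m k e Q ≤ tensorWreathSubgroup m k e (Q * glReindex e.symm (gK A)) := by
  rintro _ ⟨_, ⟨x, hx, rfl⟩, rfl⟩
  refine ⟨glReindex e.symm ((gK A)⁻¹ * x * gK A), ⟨_, ?_, rfl⟩, ?_⟩
  · have hA : gK A ∈ tensorWreathStandard m k F := Subgroup.subset_closure (Or.inl (gK_pure A))
    exact Subgroup.mul_mem _ (Subgroup.mul_mem _ (Subgroup.inv_mem _ hA) hx) hA
  · show (Q * glReindex e.symm (gK A)) * glReindex e.symm ((gK A)⁻¹ * x * gK A) *
      (Q * glReindex e.symm (gK A))⁻¹ = Q * glReindex e.symm x * Q⁻¹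
    rw [map_mul, map_mul, map_inv]
    group

theorem conj_sum {κ : Type} [Fintype κ] [DecidableEq κ] (τ : F ≃+* F) (Γ M : Matrix κ κ F) (x y : κ → F) :
    formOfGram τ Γ (M *ᵥ x) (M *ᵥ y) = formOfGram τ (Mᵀ * Γ * M.map τ) x y := by
  rw [formOfGram_eq, formOfGram_eq]
  have h1 : (fun i => τ ((M *ᵥ y) i)) = M.map τ *ᵥ (fun i => τ (y i)) := by
    funext i
    show τ (∑ j, M i j * y j) = ∑ j, τ (M i j) * τ (y j)
    rw [map_sum]
    apply Finset.sum_congr rfl
    intro j _
    rw [map_mul]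
  have h2 : (Mᵀ * Γ * M.map τ) *ᵥ (fun i => τ (y i)) = Mᵀ *ᵥ (Γ *ᵥ (M.map τ *ᵥ (fun i => τ (y i)))) := by
    rw [Matrix.mulVec_mulVec, Matrix.mulVec_mulVec, mul_assoc]
  rw [h1, h2, Matrix.dotProduct_mulVec x Mᵀ, Matrix.vecMul_transpose]

theorem K_map (τ : F ≃+* F) (A : Fin k → Matrix (Fin m) (Fin m) F) : (K A).map τ = K (fun i => (A i).map τ) := by
  ext x y
  show τ (∏ i, A i (x i) (y i)) = ∏ i, τ (A i (x i) (y i))
  rw [map_prod]

/-- coordinates for a tensor power form -/
theorem pure_change {e : Fin n ≃ (Fin k → Fin m)} {Q : GL (Fin n) F} {B : Fin k → Matrix (Fin m) (Fin m) F} {c : F}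
    (H : ∀ x y : (Fin k → Fin m) → F, f ((Q : Matrix (Fin n) (Fin n) F) *ᵥ (x ∘ e))
      ((Q : Matrix (Fin n) (Fin n) F) *ᵥ (y ∘ e)) = c * formOfGram τ (K B) x y)
    (A : Fin k → GL (Fin m) F) (x y : (Fin k → Fin m) → F) :
    f (((Q * glReindex e.symm (gK A) : GL (Fin n) F) : Matrix (Fin n) (Fin n) F) *ᵥ (x ∘ e))
      (((Q * glReindex e.symm (gK A) : GL (Fin n) F) : Matrix (Fin n) (Fin n) F) *ᵥ (y ∘ e)) =
      c * formOfGram τ (K (fun i => ((A i : Matrix (Fin m) (Fin m) F))ᵀ * B i *
        (A i : Matrix (Fin m) (Fin m) F).map τ)) x y := by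
  have key : ∀ x : (Fin k → Fin m) → F,
      ((Q * glReindex e.symm (gK A) : GL (Fin n) F) : Matrix (Fin n) (Fin n) F) *ᵥ (x ∘ e) =
      (Q : Matrix (Fin n) (Fin n) F) *ᵥ ((K (fun i => (A i : Matrix (Fin m) (Fin m) F)) *ᵥ x) ∘ e) := by
    intro x
    rw [Units.val_mul, ← Matrix.mulVec_mulVec]
    congr 1
    funext j
    show ∑ i, K (fun i => (A i : Matrix (Fin m) (Fin m) F)) (e j) (e i) * x (e i) =
      ∑ a, K (fun i => (A i : Matrix (Fin m) (Fin m) F)) (e j) a * x a
    exact Equiv.sum_comp e (fun a => K (fun i => (A i : Matrix (Fin m) (Fin m) F)) (e j) a * x a)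
  rw [key, key, H, conj_sum, K_transpose, K_map, K_mul, K_mul]
  rfl

/-- the block structure of the gram matrix of a tensor power -/
theorem gram_power (Γ : (Fin k → Fin m) → (Fin k → Fin m) → F) (τ : F ≃+* F) (hinv : ∀ a, τ (τ a) = a)
    (rel : Fin k → Matrix (Fin m) (Fin m) F → Matrix (Fin m) (Fin m) F → Prop)
    (hr : ∀ i z z', rel i z z' → ∀ x y, ∑ a, z a (x i) * Γ (Function.update x i a) y =
      ∑ a, τ (z' a (y i)) * Γ x (Function.update y i a))
    (h1 : ∀ i z, ∃ z', rel i z z') (h2 : ∀ i z', ∃ z, rel i z z')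
    {x₀ y₀ : Fin k → Fin m} (h0 : Γ x₀ y₀ ≠ 0) :
    ∃ (A : Fin k → Matrix (Fin m) (Fin m) F) (c : F), c ≠ 0 ∧ (∀ i, (A i).det ≠ 0) ∧
      (∀ x y, Γ x y = c * ∏ i, A i (x i) (y i)) ∧
      (∀ i a b, A i a b = Γ (Function.update x₀ i a) (Function.update y₀ i b)) ∧
      (∀ i, ∃ d : F, ∀ a b, Γ (Function.update y₀ i a) (Function.update x₀ i b) = d * A i a b) ∧
      (∀ i z z', rel i z z' → zᵀ * A i = A i * z'.map τ) := by
  classical
  let Γi : Fin k → ((Fin k → Fin m) × (Fin k → Fin m)) → Matrix (Fin m) (Fin m) F :=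
    fun i p a b => Γ (Function.update p.1 i a) (Function.update p.2 i b)
  have hrel : ∀ i z z', rel i z z' → ∀ p, zᵀ * Γi i p = Γi i p * z'.map τ := by
    intro i z z' hzz p
    ext a b
    rw [Matrix.mul_apply, Matrix.mul_apply]
    have := hr i z z' hzz (Function.update p.1 i a) (Function.update p.2 i b)
    rw [Function.update_self, Function.update_self] at this
    simp only [Function.update_idem] at this
    calc ∑ c, zᵀ a c * Γi i p c b = ∑ c, z c a * Γ (Function.update p.1 i c) (Function.update p.2 i b) := rfl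
      _ = _ := this
      _ = ∑ c, Γi i p a c * (z'.map τ) c b := by
          apply Finset.sum_congr rfl
          intro c _
          rw [mul_comm]
          rfl
  have hne : ∀ i, Γi i (x₀, y₀) ≠ 0 := by
    intro i h
    apply h0
    have := congrFun (congrFun h (x₀ i)) (y₀ i)
    have e1 : Γi i (x₀, y₀) (x₀ i) (y₀ i) = Γ x₀ y₀ := by
      show Γ (Function.update x₀ i (x₀ i)) (Function.update y₀ i (y₀ i)) = _
      rw [Function.update_eq_self, Function.update_eq_self]
    rw [← e1, this]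
    rfl
  have hg := fun i => gram_scalar (Γi i) τ hinv (fun z => by
      obtain ⟨z', hz'⟩ := h1 i z
      exact ⟨z', hrel i z z' hz'⟩) (fun z' => by
      obtain ⟨z, hz⟩ := h2 i z'
      exact ⟨z, hrel i z z' hz⟩) (x₀, y₀) (hne i)
  choose hdet c hc using hg
  have hA0 : ∀ i, Γi i (x₀, y₀) (x₀ i) (y₀ i) = Γ x₀ y₀ := by
    intro i
    show Γ (Function.update x₀ i (x₀ i)) (Function.update y₀ i (y₀ i)) = _
    rw [Function.update_eq_self, Function.update_eq_self]
  have hcc : ∀ i p a b, Γ (Function.update p.1 i a) (Function.update p.2 i b) = c i p * Γi i (x₀, y₀) a b := by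
    intro i p a b
    exact congrFun (congrFun (hc i p) a) b
  have hstep : ∀ (x y : Fin k → Fin m) (s : Finset (Fin k)),
      Γ x y * (Γ x₀ y₀) ^ s.card = (∏ i ∈ s, Γi i (x₀, y₀) (x i) (y i)) *
        Γ (fun i => if i ∈ s then x₀ i else x i) (fun i => if i ∈ s then y₀ i else y i) := by
    intro x y s
    induction s using Finset.induction_on with
    | empty => simp
    | insert i s his ih =>
      rw [Finset.card_insert_of_notMem his, pow_succ, ← mul_assoc, ih, Finset.prod_insert his]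
      set xs : Fin k → Fin m := fun i => if i ∈ s then x₀ i else x i with hxs
      set ys : Fin k → Fin m := fun i => if i ∈ s then y₀ i else y i with hys
      have e1 : (fun j => if j ∈ insert i s then x₀ j else x j) = Function.update xs i (x₀ i) := by
        funext j
        by_cases hj : j = i
        · subst hj; simp
        · rw [Function.update_of_ne hj]
          simp [hxs, hj]
      have e2 : (fun j => if j ∈ insert i s then y₀ j else y j) = Function.update ys i (y₀ i) := by
        funext j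
        by_cases hj : j = i
        · subst hj; simp
        · rw [Function.update_of_ne hj]
          simp [hys, hj]
      have e3 := hcc i (xs, ys) (x₀ i) (y₀ i)
      have e4 := hcc i (xs, ys) (x i) (y i)
      rw [hA0] at e3
      have e5 : Function.update xs i (x i) = xs := by
        have : xs i = x i := by simp [hxs, his]
        rw [← this, Function.update_eq_self]
      have e6 : Function.update ys i (y i) = ys := by
        have : ys i = y i := by simp [hys, his]
        rw [← this, Function.update_eq_self]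
      simp only at e3 e4
      rw [e5, e6] at e4
      rw [e1, e2, e3, e4]
      ring
  refine ⟨fun i => Γi i (x₀, y₀), Γ x₀ y₀ * ((Γ x₀ y₀) ^ k)⁻¹, ?_, hdet, ?_, fun i a b => rfl, ?_, ?_⟩
  · exact mul_ne_zero h0 (inv_ne_zero (pow_ne_zero _ h0))
  · intro x y
    have := hstep x y Finset.univ
    rw [Finset.card_univ, Fintype.card_fin] at this
    simp only [Finset.mem_univ, if_true] at this
    have hk0 : (Γ x₀ y₀) ^ k ≠ 0 := pow_ne_zero _ h0
    field_simp
    rw [this]
    ring
  · intro i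
    exact ⟨c i (y₀, x₀), fun a b => hcc i (y₀, x₀) a b⟩
  · intro i z z' hzz
    exact hrel i z z' hzz (x₀, y₀)

end Cfsg.Agent.H29.Fm
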