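import Mathlib
import Cfsg.Agent.H29_Fm7

set_option autoImplicit false

/-! tensor powers and forms, II -/

namespace Cfsg.Agent.H29.Fm

open Matrix Module Cfsg.Geo Cfsg.Agent.H29.Clifford Cfsg.Agent.H29.Asc Cfsg.Agent.H29.AscF Cfsg.Agent.H29.Trv
  Cfsg.Agent.H29.AscT
open scoped Kronecker

variable {F : Type*} [Field F] {n k m : ℕ}
variable {τ : F ≃+* F} {ε : F} {f : (Fin n → F) → (Fin n → F) → F}

/-- automorphisms between the factors -/
theorem factor_aut {P : Fin k → Subgroup (GL (Fin n) F)} (e : ∀ i, env (P i) ≃ₐ[F] Matrix (Fin m) (Fin m) F)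
    {i j : Fin k} {g : GL (Fin n) F} (hg : ∀ x ∈ P i, g * x * g⁻¹ ∈ P j) :
    ∃ a : GL (Fin m) F, ∀ z, cjA g ((e i).symm z : Module.End F (Fin n → F)) =
      ((e j).symm ((a : Matrix (Fin m) (Fin m) F) * z * ((a⁻¹ : GL (Fin m) F) : Matrix (Fin m) (Fin m) F)) :
        Module.End F (Fin n → F)) := by
  let f : Matrix (Fin m) (Fin m) F →ₐ[F] Matrix (Fin m) (Fin m) F :=
    (e j).toAlgHom.comp
    { toFun := fun z => (⟨cjA g ((e i).symm z : Module.End F (Fin n → F)), cjA_env hg ((e i).symm z).2⟩ : env (P j))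
      map_one' := Subtype.ext (by
        show cjA g ((e i).symm 1 : Module.End F (Fin n → F)) = 1
        rw [map_one]
        exact map_one (cjA g))
      map_mul' := fun x y => Subtype.ext (by
        show cjA g ((e i).symm (x * y) : Module.End F (Fin n → F)) = cjA g ((e i).symm x : Module.End F (Fin n → F)) * cjA g ((e i).symm y : Module.End F (Fin n → F))
        rw [map_mul]
        exact map_mul (cjA g) _ _)
      map_zero' := Subtype.ext (by
        show cjA g ((e i).symm 0 : Module.End F (Fin n → F)) = 0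
        rw [map_zero]
        exact map_zero (cjA g))
      map_add' := fun x y => Subtype.ext (by
        show cjA g ((e i).symm (x + y) : Module.End F (Fin n → F)) = cjA g ((e i).symm x : Module.End F (Fin n → F)) + cjA g ((e i).symm y : Module.End F (Fin n → F))
        rw [map_add]
        exact map_add (cjA g) _ _)
      commutes' := fun c => Subtype.ext (by
        show cjA g ((e i).symm (algebraMap _ _ c) : Module.End F (Fin n → F)) = algebraMap _ _ c
        rw [AlgEquiv.commutes]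
        exact AlgEquiv.commutes (cjA g) c) }
  have hfe : ∀ z, ((e j).symm (f z) : Module.End F (Fin n → F)) = cjA g ((e i).symm z : Module.End F (Fin n → F)) := by
    intro z
    show (((e j).symm (e j ⟨cjA g ((e i).symm z : Module.End F (Fin n → F)), _⟩) : env (P j)) : Module.End F (Fin n → F)) = _
    rw [AlgEquiv.symm_apply_apply]
  have hinj : Function.Injective f := by
    intro x y hxy
    apply (e i).symm.injective
    apply Subtype.ext
    apply (cjA g).injective
    rw [← hfe, ← hfe, hxy]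
  have hsurj : Function.Surjective f :=
    (LinearMap.injective_iff_surjective (f := f.toLinearMap)).1 hinj
  obtain ⟨a, ha⟩ := skolem_noether (AlgEquiv.ofBijective f ⟨hinj, hsurj⟩)
  refine ⟨a, fun z => ?_⟩
  rw [← hfe, ← ha z]
  rfl

/-- A central product acting absolutely irreducibly whose factors are permuted transitively
leads to a tensor power decomposition, with forms. -/
theorem tensor_power_form [Fintype F] (hn : 0 < n) (h : SFm τ ε f) (hk : 0 < k)
    (P : Fin k → Subgroup (GL (Fin n) F))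
    (hcomm : ∀ i j, i ≠ j → ∀ x ∈ P i, ∀ y ∈ P j, x * y = y * x)
    (henv : env (⨆ i, P i) = ⊤) (hns : ∀ i, ¬ P i ≤ scalars (Fin n) F)
    (G : Subgroup (GL (Fin n) F)) (hG : Fx f G) (hPG : ∀ i, P i ≤ G)
    (hperm : ∀ g ∈ G, ∃ σ : Equiv.Perm (Fin k), ∀ i, ∀ x ∈ P i, g * x * g⁻¹ ∈ P (σ i))
    (htr : ∀ i j, ∃ g ∈ G, ∀ x ∈ P i, g * x * g⁻¹ ∈ P j) :
    ∃ (m : ℕ) (e : Fin n ≃ (Fin k → Fin m)) (Q : GL (Fin n) F) (A : Matrix (Fin m) (Fin m) F) (δ c : F), 2 ≤ m ∧
      G ≤ tensorWreathSubgroup m k e Q ∧ A.det ≠ 0 ∧ c ≠ 0 ∧ (δ = 1 ∨ δ = -1) ∧ HM τ δ A ∧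
      (τ ≠ RingEquiv.refl F → δ = 1) ∧
      ∀ x y : (Fin k → Fin m) → F, f ((Q : Matrix (Fin n) (Fin n) F) *ᵥ (x ∘ e))
      ((Q : Matrix (Fin n) (Fin n) F) *ᵥ (y ∘ e)) = c * formOfGram τ (K (fun _ => A)) x y := by
  classical
  haveI : Nonempty (Fin n) := ⟨⟨0, hn⟩⟩
  haveI : Nontrivial (Fin n → F) := inferInstance
  choose w hw0 hw using factor_matrix hn P hcomm henv
  have hww : ∀ i j, w i * w i ≤ w j * w j := by
    intro i j
    obtain ⟨g, -, hg⟩ := htr i j
    have := finrank_env_le hg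
    rwa [finrank_of_equiv _ (hw i).some, finrank_of_equiv _ (hw j).some] at this
  have hweq : ∀ i j, w i = w j := fun i j => Nat.mul_self_inj.1 (le_antisymm (hww i j) (hww j i))
  obtain ⟨m, hm⟩ : ∃ m, ∀ i, w i = m := ⟨w ⟨0, hk⟩, fun i => hweq _ _⟩
  have hm0 : 0 < m := by rw [← hm ⟨0, hk⟩]; exact hw0 _
  have he : ∀ i, Nonempty (env (P i) ≃ₐ[F] Matrix (Fin m) (Fin m) F) := by
    intro i; rw [← hm i]; exact hw i
  let e := fun i => (he i).some
  have hm2 : 2 ≤ m := by
    by_contra hcon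
    have hm1 : m = 1 := by omega
    subst hm1
    apply hns ⟨0, hk⟩
    apply scalar_of_finrank hn
    rw [finrank_of_equiv _ (e ⟨0, hk⟩)]
  let φ : Fin k → (Matrix (Fin m) (Fin m) F →ₐ[F] Module.End F (Fin n → F)) :=
    fun i => (env (P i)).val.comp (e i).symm.toAlgHom
  have hφmem : ∀ i z, φ i z ∈ env (P i) := fun i z => ((e i).symm z).2
  have hφsurj : ∀ i, ∀ r ∈ env (P i), ∃ z, φ i z = r := by
    intro i r hr
    refine ⟨e i ⟨r, hr⟩, ?_⟩
    show ((e i).symm (e i ⟨r, hr⟩) : Module.End F (Fin n → F)) = r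
    rw [AlgEquiv.symm_apply_apply]
  have hc : ∀ i j, i ≠ j → ∀ x y v, φ i x (φ j y v) = φ j y (φ i x v) := by
    intro i j hij x y v
    exact LinearMap.congr_fun (env_commute (fun x hx y hy => hcomm i j hij x hx y hy) (hφmem i x) (hφmem j y)) v
  obtain ⟨b, hb⟩ := exists_tensor_basis φ hm0 hc (by
    intro W hW
    apply (absIrr_of_env_top henv).1
    rintro _ ⟨g, hg, rfl⟩ _ ⟨w, hw, rfl⟩
    have hst : ∀ w ∈ W, (g : Matrix (Fin n) (Fin n) F) *ᵥ w ∈ W := by
      refine Subgroup.iSup_induction P (C := fun g => ∀ w ∈ W, (g : Matrix (Fin n) (Fin n) F) *ᵥ w ∈ W) hg ?_ ?_ ?_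
      · intro j g hg w hw
        obtain ⟨z, hz⟩ := hφsurj j _ (mem_env hg)
        have := hW j z w hw
        rw [hz] at this
        exact this
      · intro w hw; rw [Units.val_one, Matrix.one_mulVec]; exact hw
      · intro a b ha hb w hw
        rw [Units.val_mul, ← Matrix.mulVec_mulVec]
        exact ha _ (hb w hw)
    exact hst w hw)
  have hcard : Fintype.card (Fin n) = Fintype.card (Fin k → Fin m) := by
    rw [card_eq_of_basis b, Fintype.card_fin]
  let ε' : Fin n ≃ (Fin k → Fin m) := Fintype.equivOfCardEq hcard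
  obtain ⟨Q, hQ⟩ := exists_GL_basis b ε'
  have hmem : G ≤ tensorWreathSubgroup m k ε' Q := by
    intro g hg
    obtain ⟨σ, hσ⟩ := hperm g hg
    have haut : ∀ i, ∃ a : GL (Fin m) F, ∀ z, cjA g (φ i z) = φ (σ i) ((a : Matrix (Fin m) (Fin m) F) * z *
        ((a⁻¹ : GL (Fin m) F) : Matrix (Fin m) (Fin m) F)) := fun i => factor_aut e (hσ i)
    choose a ha using haut
    refine mem_wreath φ b hb ε' Q hQ ?_ hk g σ a ha
    intro u hu
    apply centre_top
    intro r
    apply commute_env (P := ⨆ i, P i) _ (by rw [henv]; trivial)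
    intro x hx
    refine Subgroup.iSup_induction P
      (C := fun g => u * tl n F (g : Matrix (Fin n) (Fin n) F) = tl n F (g : Matrix (Fin n) (Fin n) F) * u)
      hx ?_ ?_ ?_
    · intro j g hg
      obtain ⟨z, hz⟩ := hφsurj j _ (mem_env hg)
      rw [← hz]
      exact hu j z
    · rw [Units.val_one, map_one, one_mul, mul_one]
    · intro a b ha hb
      rw [Units.val_mul, map_mul, ← mul_assoc, ha, mul_assoc, hb, mul_assoc]
  -- the gram matrix
  let Γ : (Fin k → Fin m) → (Fin k → Fin m) → F := fun x y => f (b x) (b y)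
  let rel : Fin k → Matrix (Fin m) (Fin m) F → Matrix (Fin m) (Fin m) F → Prop :=
    fun i z z' => Adj f (φ i z) (φ i z')
  have hcl : ∀ i, AClosed f (env (P i)) := fun i => env_closed h (hG.mono (hPG i))
  have hr : ∀ i z z', rel i z z' → ∀ x y, ∑ a, z a (x i) * Γ (Function.update x i a) y =
      ∑ a, τ (z' a (y i)) * Γ x (Function.update y i a) := by
    intro i z z' hzz x y
    have h1 := hzz (b x) (b y)
    rw [phi_lin φ hb, phi_lin φ hb, h.sum_left, h.sum_right] at h1
    calc ∑ a, z a (x i) * Γ (Function.update x i a) y = ∑ a, f (z a (x i) • b (Function.update x i a)) (b y) := by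
          apply Finset.sum_congr rfl
          intro a _
          rw [h.smul_left]
      _ = ∑ a, f (b x) (z' a (y i) • b (Function.update y i a)) := h1
      _ = _ := by
          apply Finset.sum_congr rfl
          intro a _
          rw [h.smul_right]
  have hr1 : ∀ i z, ∃ z', rel i z z' := by
    intro i z
    obtain ⟨r, hr, hadj⟩ := hcl i (φ i z) (hφmem i z)
    obtain ⟨y, hy⟩ := hφsurj i r hr
    exact ⟨y, by show Adj f (φ i z) (φ i y); rw [hy]; exact hadj⟩
  have hr2 : ∀ i z', ∃ z, rel i z z' := by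
    intro i z'
    obtain ⟨z, hz⟩ := hr1 i z'
    exact ⟨z, Adj.symm h hz⟩
  have h3 : ∃ x₀ y₀, Γ x₀ y₀ ≠ 0 := by
    by_contra hcon
    push Not at hcon
    have hall : ∀ u v, f u v = 0 := by
      intro u v
      rw [← b.sum_repr u, ← b.sum_repr v, h.sum_left]
      apply Finset.sum_eq_zero
      intro x _
      rw [h.sum_right]
      apply Finset.sum_eq_zero
      intro y _
      rw [h.smul_left, h.smul_right]
      have e1 : f (b x) (b y) = 0 := hcon x y
      rw [e1, mul_zero, mul_zero]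
    obtain ⟨x, hx⟩ := h.nd (Pi.single ⟨0, hn⟩ 1) (by
      intro h0
      have := congrFun h0 ⟨0, hn⟩
      rw [Pi.single_eq_same] at this
      exact one_ne_zero this)
    exact hx (hall _ _)
  obtain ⟨x₀, y₀, h0⟩ := h3
  obtain ⟨A, c, hc0, hAdet, hAc, hAdef, hAsw, hArel⟩ := gram_power Γ τ h.inv rel hr hr1 hr2 h0
  -- all factors are similar
  let i0 : Fin k := ⟨0, hk⟩
  have hsim : ∀ j, ∃ (a : GL (Fin m) F) (d : F), ((a : Matrix (Fin m) (Fin m) F))ᵀ * A j *
      (a : Matrix (Fin m) (Fin m) F).map τ = d • A i0 := by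
    intro j
    obtain ⟨g, hg, hgP⟩ := htr i0 j
    obtain ⟨a, ha⟩ := factor_aut e hgP
    refine ⟨a, ?_⟩
    have ha' : ∀ z, cjA g (φ i0 z) = φ j ((a : Matrix (Fin m) (Fin m) F) * z * ((a⁻¹ : GL (Fin m) F) : Matrix (Fin m) (Fin m) F)) := ha
    have hai : ((a⁻¹ : GL (Fin m) F) : Matrix (Fin m) (Fin m) F) * (a : Matrix (Fin m) (Fin m) F) = 1 := by
      rw [← Units.val_mul, inv_mul_cancel, Units.val_one]
    have hai' : (a : Matrix (Fin m) (Fin m) F) * ((a⁻¹ : GL (Fin m) F) : Matrix (Fin m) (Fin m) F) = 1 := by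
      rw [← Units.val_mul, mul_inv_cancel, Units.val_one]
    have hkey : ∀ z z', rel i0 z z' → zᵀ * ((a : Matrix (Fin m) (Fin m) F)ᵀ * A j * (a : Matrix (Fin m) (Fin m) F).map τ) =
        ((a : Matrix (Fin m) (Fin m) F)ᵀ * A j * (a : Matrix (Fin m) (Fin m) F).map τ) * z'.map τ := by
      intro z z' hzz
      have h5 : rel j ((a : Matrix (Fin m) (Fin m) F) * z * ((a⁻¹ : GL (Fin m) F) : Matrix (Fin m) (Fin m) F))
          ((a : Matrix (Fin m) (Fin m) F) * z' * ((a⁻¹ : GL (Fin m) F) : Matrix (Fin m) (Fin m) F)) := by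
        show Adj f (φ j _) (φ j _)
        rw [← ha', ← ha']
        exact Adj.cjA hG hg hzz
      have h6 := hArel j _ _ h5
      have h7 : (a : Matrix (Fin m) (Fin m) F)ᵀ * ((a : Matrix (Fin m) (Fin m) F) * z * ((a⁻¹ : GL (Fin m) F) : Matrix (Fin m) (Fin m) F))ᵀ =
          zᵀ * (a : Matrix (Fin m) (Fin m) F)ᵀ := by
        rw [← Matrix.transpose_mul, mul_assoc, hai, mul_one, Matrix.transpose_mul]
      have h8 : ((a : Matrix (Fin m) (Fin m) F) * z' * ((a⁻¹ : GL (Fin m) F) : Matrix (Fin m) (Fin m) F)).map τ *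
          (a : Matrix (Fin m) (Fin m) F).map τ = (a : Matrix (Fin m) (Fin m) F).map τ * z'.map τ := by
        have e1 : ∀ X Y : Matrix (Fin m) (Fin m) F, X.map τ * Y.map τ = (X * Y).map τ := by
          intro X Y
          ext p q
          show ∑ r, τ (X p r) * τ (Y r q) = τ (∑ r, X p r * Y r q)
          rw [map_sum]
          apply Finset.sum_congr rfl
          intro r _
          rw [map_mul]
        rw [e1, e1, mul_assoc, hai, mul_one]
      calc zᵀ * ((a : Matrix (Fin m) (Fin m) F)ᵀ * A j * (a : Matrix (Fin m) (Fin m) F).map τ)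
          = (zᵀ * (a : Matrix (Fin m) (Fin m) F)ᵀ) * (A j * (a : Matrix (Fin m) (Fin m) F).map τ) := by
            simp only [mul_assoc]
        _ = (a : Matrix (Fin m) (Fin m) F)ᵀ * (((a : Matrix (Fin m) (Fin m) F) * z * ((a⁻¹ : GL (Fin m) F) : Matrix (Fin m) (Fin m) F))ᵀ * A j) *
              (a : Matrix (Fin m) (Fin m) F).map τ := by
            rw [← h7]; simp only [mul_assoc]
        _ = (a : Matrix (Fin m) (Fin m) F)ᵀ * A j * (((a : Matrix (Fin m) (Fin m) F) * z' * ((a⁻¹ : GL (Fin m) F) : Matrix (Fin m) (Fin m) F)).map τ *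
              (a : Matrix (Fin m) (Fin m) F).map τ) := by
            rw [h6]; simp only [mul_assoc]
        _ = _ := by rw [h8]; simp only [mul_assoc]
    let Γ2 : Bool → Matrix (Fin m) (Fin m) F := fun t => if t then A i0 else
      ((a : Matrix (Fin m) (Fin m) F)ᵀ * A j * (a : Matrix (Fin m) (Fin m) F).map τ)
    have hΓ2 : ∀ z z', rel i0 z z' → ∀ t, zᵀ * Γ2 t = Γ2 t * z'.map τ := by
      intro z z' hzz t
      cases t
      · exact hkey z z' hzz
      · exact hArel i0 z z' hzz
    obtain ⟨-, d, hd⟩ := gram_scalar Γ2 τ h.inv (fun z => by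
        obtain ⟨z', hz'⟩ := hr1 i0 z
        exact ⟨z', hΓ2 z z' hz'⟩) (fun z' => by
        obtain ⟨z, hz⟩ := hr2 i0 z'
        exact ⟨z, hΓ2 z z' hz⟩) true (by
        intro h9
        have h9' : A i0 = 0 := h9
        haveI : Nonempty (Fin m) := ⟨⟨0, hm0⟩⟩
        apply hAdet i0
        rw [h9', Matrix.det_zero])
    exact ⟨d false, hd false⟩
  choose a d hd using hsim
  have hd0 : ∀ j, d j ≠ 0 := by
    intro j h9
    have h10 := congrArg Matrix.det (hd j)
    haveI : Nonempty (Fin m) := ⟨⟨0, hm0⟩⟩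
    rw [h9, zero_smul, Matrix.det_zero, Matrix.det_mul, Matrix.det_mul, Matrix.det_transpose] at h10
    have ha0 : (a j : Matrix (Fin m) (Fin m) F).det ≠ 0 := by
      have := (Matrix.GeneralLinearGroup.det (a j)).ne_zero
      simpa using this
    have ha1 : ((a j : Matrix (Fin m) (Fin m) F).map τ).det ≠ 0 := by
      have : ((a j : Matrix (Fin m) (Fin m) F).map τ).det = τ (a j : Matrix (Fin m) (Fin m) F).det :=
        (RingHom.map_det (τ : F →+* F) _).symm
      rw [this]
      exact (map_ne_zero τ).2 ha0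
    exact mul_ne_zero (mul_ne_zero ha0 (hAdet j)) ha1 h10
  -- hermitian
  obtain ⟨d', hd'⟩ := hAsw i0
  have hherm : ∀ p q, A i0 p q = (ε * τ d') * τ (A i0 q p) := by
    intro p q
    rw [hAdef i0 p q]
    show f (b _) (b _) = _
    rw [h.herm]
    have : f (b (Function.update y₀ i0 q)) (b (Function.update x₀ i0 p)) = d' * A i0 q p := hd' q p
    rw [this, map_mul]
    ring
  have hA00 : A i0 (x₀ i0) (y₀ i0) ≠ 0 := by
    rw [hAdef i0, Function.update_eq_self, Function.update_eq_self]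
    exact h0
  obtain ⟨d₁, δ, hd₁, hδ, hδA, hδτ⟩ : ∃ d₁ δ : F, d₁ ≠ 0 ∧ (δ = 1 ∨ δ = -1) ∧ HM τ δ (d₁ • A i0) ∧
      (τ ≠ RingEquiv.refl F → δ = 1) := by
    set δ := ε * τ d' with hδdef
    have hδδ : δ * τ δ = 1 := by
      have h2 := hherm (x₀ i0) (y₀ i0)
      rw [hherm (y₀ i0) (x₀ i0), map_mul, h.inv] at h2
      have h3 : (δ * τ δ - 1) * A i0 (x₀ i0) (y₀ i0) = 0 := by linear_combination -h2
      exact sub_eq_zero.1 ((mul_eq_zero.1 h3).resolve_right hA00)
    by_cases hτ : τ = RingEquiv.refl F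
    · refine ⟨1, δ, one_ne_zero, ?_, ?_, fun h => absurd hτ h⟩
      · have hδ2 : δ * δ = 1 := by
          rw [hτ] at hδδ
          exact hδδ
        have : (δ - 1) * (δ + 1) = 0 := by linear_combination hδ2
        rcases mul_eq_zero.1 this with h | h
        · left; exact sub_eq_zero.1 h
        · right; exact eq_neg_of_add_eq_zero_left h
      · intro p q
        rw [one_smul]
        exact hherm p q
    · obtain ⟨d₁, hd0, hd₁⟩ := h90 hτ h.inv hδδ
      refine ⟨d₁, 1, hd0, Or.inl rfl, ?_, fun _ => rfl⟩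
      intro i j
      rw [Matrix.smul_apply, Matrix.smul_apply, smul_eq_mul, smul_eq_mul, map_mul, hd₁, hherm i j]
      ring
  refine ⟨m, ε', Q * glReindex ε'.symm (gK a), d₁ • A i0, δ, c * (∏ j, d j) * (d₁⁻¹) ^ k, hm2,
    hmem.trans (wreath_conj ε' Q a), ?_, ?_, hδ, hδA, hδτ, ?_⟩
  · rw [Matrix.det_smul]
    exact mul_ne_zero (pow_ne_zero _ hd₁) (hAdet i0)
  · exact mul_ne_zero (mul_ne_zero hc0 (Finset.prod_ne_zero_iff.2 (fun j _ => hd0 j))) (pow_ne_zero _ (inv_ne_zero hd₁))
  · intro x y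
    have H : ∀ x y : (Fin k → Fin m) → F, f ((Q : Matrix (Fin n) (Fin n) F) *ᵥ (x ∘ ε'))
        ((Q : Matrix (Fin n) (Fin n) F) *ᵥ (y ∘ ε')) = c * formOfGram τ (K A) x y := by
      intro x y
      rw [form_coord h b ε' Q hQ]
      show _ = c * ∑ a, ∑ b, x a * K A a b * τ (y b)
      rw [Finset.mul_sum]
      apply Finset.sum_congr rfl
      intro p _
      rw [Finset.mul_sum]
      apply Finset.sum_congr rfl
      intro q _
      have : f (b p) (b q) = c * ∏ i, A i (p i) (q i) := hAc p q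
      rw [this, K_apply]
      ring
    rw [pure_change H a]
    have e1 : (fun i => ((a i : Matrix (Fin m) (Fin m) F))ᵀ * A i * (a i : Matrix (Fin m) (Fin m) F).map τ) =
        fun i => (d i * d₁⁻¹) • (fun _ => d₁ • A i0 : Fin k → Matrix (Fin m) (Fin m) F) i := by
      funext i
      rw [hd i, smul_smul, mul_assoc, inv_mul_cancel₀ hd₁, mul_one]
    rw [e1, K_smul, Finset.prod_mul_distrib, Finset.prod_const, Finset.card_univ, Fintype.card_fin]
    have e2 : ∀ (s : F) (M : Matrix (Fin k → Fin m) (Fin k → Fin m) F) (x y : (Fin k → Fin m) → F),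
        formOfGram τ (s • M) x y = s * formOfGram τ M x y := by
      intro s M x y
      rw [formOfGram_eq, formOfGram_eq, Matrix.smul_mulVec, dotProduct_smul, smul_eq_mul]
    rw [e2]
    ring

end Cfsg.Agent.H29.Fm
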