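import Mathlib
import Cfsg.Agent.H29_Fm8

set_option autoImplicit false

/-! the dichotomy for groups of isometries -/

namespace Cfsg.Agent.H29.Fm

open Matrix Module Cfsg.Geo Cfsg.Agent.H29.Clifford Cfsg.Agent.H29.Asc Cfsg.Agent.H29.AscF Cfsg.Agent.H29.Trv
  Cfsg.Agent.H29.AscT
open scoped Kronecker

variable {F : Type*} [Field F] {n k m : ℕ}
variable {τ : F ≃+* F} {ε : F} {f : (Fin n → F) → (Fin n → F) → F}

/-- tensor structure of a form -/
structure TS (τ : F ≃+* F) (ε : F) (f : (Fin n → F) → (Fin n → F) → F) {w t : ℕ} (e : Fin n ≃ Fin w × Fin t)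
    (P : GL (Fin n) F) (A : Matrix (Fin w) (Fin w) F) (C : Matrix (Fin t) (Fin t) F) (δ₁ δ₂ : F) : Prop where
  d1 : δ₁ = 1 ∨ δ₁ = -1
  d2 : δ₂ = 1 ∨ δ₂ = -1
  mul : δ₁ * δ₂ = ε
  detA : A.det ≠ 0
  detC : C.det ≠ 0
  hA : HM τ δ₁ A
  hC : HM τ δ₂ C
  form : ∀ x y : Fin w × Fin t → F, f ((P : Matrix (Fin n) (Fin n) F) *ᵥ (x ∘ e))
    ((P : Matrix (Fin n) (Fin n) F) *ᵥ (y ∘ e)) = formOfGram τ (A ⊗ₖ C) x y

theorem TS.swap {w t : ℕ} {e : Fin n ≃ Fin w × Fin t}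
    {P : GL (Fin n) F} {A : Matrix (Fin w) (Fin w) F} {C : Matrix (Fin t) (Fin t) F} {δ₁ δ₂ : F}
    (h : TS τ ε f e P A C δ₁ δ₂) : TS τ ε f (e.trans (Equiv.prodComm _ _)) P C A δ₂ δ₁ where
  d1 := h.d2
  d2 := h.d1
  mul := by rw [mul_comm]; exact h.mul
  detA := h.detC
  detC := h.detA
  hA := h.hC
  hC := h.hA
  form := by
    intro x y
    have := h.form (x ∘ Equiv.prodComm _ _) (y ∘ Equiv.prodComm _ _)
    have e1 : ∀ z : Fin t × Fin w → F, (z ∘ (e.trans (Equiv.prodComm _ _))) = ((z ∘ Equiv.prodComm _ _) ∘ e) :=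
      fun z => rfl
    rw [e1, e1, this]
    show ∑ a, ∑ b, x ((Equiv.prodComm _ _) a) * (A ⊗ₖ C) a b * τ (y ((Equiv.prodComm _ _) b)) =
      ∑ a, ∑ b, x a * (C ⊗ₖ A) a b * τ (y b)
    rw [← Equiv.sum_comp (Equiv.prodComm (Fin w) (Fin t)) (fun a => ∑ b, x a * (C ⊗ₖ A) a b * τ (y b))]
    apply Finset.sum_congr rfl
    intro a _
    rw [← Equiv.sum_comp (Equiv.prodComm (Fin w) (Fin t)) (fun b => x ((Equiv.prodComm _ _) a) *
      (C ⊗ₖ A) ((Equiv.prodComm _ _) a) b * τ (y b))]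
    apply Finset.sum_congr rfl
    intro b _
    have : (C ⊗ₖ A) ((Equiv.prodComm (Fin w) (Fin t)) a) ((Equiv.prodComm (Fin w) (Fin t)) b) = (A ⊗ₖ C) a b := by
      rw [Matrix.kroneckerMap_apply, Matrix.kroneckerMap_apply, mul_comm]
      rfl
    rw [this]

/-- `G` is a group of isometries lying in no member of the first three classes -/
structure NG [Fintype F] (τ : F ≃+* F) (ε : F) (f : (Fin n → F) → (Fin n → F) → F) (G : Subgroup (GL (Fin n) F)) :
    Prop where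
  form : SFm τ ε f
  fix : Fx f G
  ts : ∀ W : Submodule F (Fin n → F), W ≠ ⊥ → IsTotallySingularFor f W → ¬ G ≤ subspaceStabilizer W
  nd : ∀ W : Submodule F (Fin n → F), W ≠ ⊥ → IsNondegenerateOn f W → 2 * finrank F W < n →
    ¬ G ≤ subspaceStabilizer W
  ndd : ∀ (t k : ℕ) (D : Fin t → Submodule F (Fin n → F)), IsNondegenerateMDecomposition f k D →
    ¬ G ≤ decompositionStabilizer D
  tsd : ∀ (k : ℕ) (D : Fin 2 → Submodule F (Fin n → F)), IsMDecomposition k D →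
    (∀ i, IsTotallySingularFor f (D i)) → ¬ G ≤ decompositionStabilizer D
  fld : ∀ (r : ℕ) (K : Subalgebra F (Matrix (Fin n) (Fin n) F)), r.Prime → (τ ≠ RingEquiv.refl F → Odd r) →
    IsFieldSubalgebra r K → IsAdjointClosedFor f K → ¬ G ≤ subalgebraNormalizer K

theorem NG.irr [Fintype F] {G : Subgroup (GL (Fin n) F)} (hG : NG τ ε f G) : ActsIrreducibly (matrixSet G) := by
  by_contra hirr
  rcases reducible_cases hG.form hG.fix hirr with ⟨W, h1, h2, h3⟩ | ⟨W, h1, h2, h3, h4⟩ | ⟨k, D, h1, -, h3⟩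
  · exact hG.ts W h1 h2 h3
  · exact hG.nd W h1 h2 h3 h4
  · exact hG.ndd 2 k D h1 h3

/-- The fundamental dichotomy for forms. -/
theorem NG.dichotomy [Fintype F] (hn : 0 < n) {G : Subgroup (GL (Fin n) F)} (hG : NG τ ε f G)
    {N : Subgroup (GL (Fin n) F)} (hNG : N ≤ G) (hN : ∀ g ∈ G, ∀ x ∈ N, g * x * g⁻¹ ∈ N) :
    N ≤ scalars (Fin n) F ∨ env N = ⊤ ∨
    ∃ (w t : ℕ) (e : Fin n ≃ Fin w × Fin t) (P : GL (Fin n) F) (A : Matrix (Fin w) (Fin w) F)
      (C : Matrix (Fin t) (Fin t) F) (δ₁ δ₂ : F), 2 ≤ w ∧ 2 ≤ t ∧ TS τ ε f e P A C δ₁ δ₂ ∧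
      (τ ≠ RingEquiv.refl F → δ₁ = 1) ∧ G ≤ tensorProductSubgroup w t e P := by
  classical
  haveI : Nonempty (Fin n) := ⟨⟨0, hn⟩⟩
  have hR : ∀ g ∈ G, Normalises (env N) (glEquiv g) := by
    intro g hg
    apply env_normalises (hN g hg)
    intro x hx
    have := hN g⁻¹ (G.inv_mem hg) x hx
    rwa [inv_inv] at this
  have hcl : AClosed f (env N) := env_closed hG.form (hG.fix.mono hNG)
  have hccl := cen_closed hG.form hcl
  have hGC : ∀ g ∈ G, ∀ x ∈ cen (env N), cjA g x ∈ cen (env N) := fun g hg x hx => cen_cjA (hR g hg) hx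
  rcases center_cases hn hG.form hG.fix hG.irr cen_comm hccl hGC with ⟨t, k, D, h1, h2⟩ | ⟨k, D, h1, h2, h3⟩ | hCf
  · exact absurd h2 (hG.ndd t k D h1)
  · exact absurd h3 (hG.tsd k D h1 h2)
  rcases field_sub hn hG.form cen_comm hccl hGC hCf with hsc | ⟨r, K, hr, hodd, hK, hKa, hKG⟩
  swap
  · exact absurd hKG (hG.fld r K hr hodd hK hKa)
  obtain ⟨hs, ha⟩ := simple_of_center_field hn hG.irr (env N) hR hCf
  obtain ⟨w, hw, ⟨e⟩⟩ := exists_matrix_equiv (env N) hs ha (by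
    intro z hz hzc
    exact hsc z (mem_cen.2 ⟨hz, hzc⟩))
  obtain ⟨t, e', P, b, hwt, hP, hb, hmem⟩ := tensor_basis (env N) hw e
  have ht : 0 < t := by
    rcases Nat.eq_zero_or_pos t with h | h
    · subst h; omega
    · exact h
  rcases Nat.lt_or_ge w 2 with hw2 | hw2
  · left
    have hw1 : w = 1 := by omega
    subst hw1
    apply scalar_of_finrank hn
    rw [finrank_of_equiv _ e]
  rcases Nat.lt_or_ge t 2 with ht2 | ht2
  · right; left
    have ht1 : t = 1 := by omega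
    subst ht1
    have hwn : w = n := by omega
    subst hwn
    have h1 := finrank_of_equiv _ e
    have h2 : finrank F (Module.End F (Fin w → F)) = w * w := by
      rw [Module.finrank_linearMap]
      simp
    apply Subalgebra.toSubmodule_injective
    rw [Algebra.top_toSubmodule]
    apply Submodule.eq_top_of_finrank_eq
    rw [h2]
    exact h1
  right; right
  obtain ⟨A, C, hA, hC, hAC⟩ := tensor_gram hG.form hcl hn e b hb
  have hA0 : ∃ i j, A i j ≠ 0 := by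
    by_contra hcon
    push Not at hcon
    apply hA
    have h0 : A = 0 := by ext i j; exact hcon i j
    haveI : Nonempty (Fin w) := ⟨⟨0, hw⟩⟩
    rw [h0, Matrix.det_zero]
  have hC0 : ∃ i j, C i j ≠ 0 := by
    by_contra hcon
    push Not at hcon
    apply hC
    have h0 : C = 0 := by ext i j; exact hcon i j
    haveI : Nonempty (Fin t) := ⟨⟨0, ht⟩⟩
    rw [h0, Matrix.det_zero]
  obtain ⟨i₀, j₀, hi⟩ := hA0
  obtain ⟨l₀, m₀, hl⟩ := hC0
  obtain ⟨d, δ₁, δ₂, hd, hδ₁, hδ₂, hδ, hτ, hHA, hHC⟩ := herm_split hG.form.inv hG.form.eps hi hl (by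
    intro i l j m
    rw [← hAC, ← hAC]
    exact hG.form.herm _ _)
  refine ⟨w, t, e', P, d • A, d⁻¹ • C, δ₁, δ₂, hw2, ht2, ⟨hδ₁, hδ₂, hδ, ?_, ?_, hHA, hHC, ?_⟩, hτ, ?_⟩
  · rw [Matrix.det_smul]
    exact mul_ne_zero (pow_ne_zero _ hd) hA
  · rw [Matrix.det_smul]
    exact mul_ne_zero (pow_ne_zero _ (inv_ne_zero hd)) hC
  · intro x y
    rw [form_coord hG.form b e' P hP]
    show _ = ∑ a, ∑ c, x a * ((d • A) ⊗ₖ (d⁻¹ • C)) a c * τ (y c)
    apply Finset.sum_congr rfl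
    rintro ⟨i, l⟩ _
    apply Finset.sum_congr rfl
    rintro ⟨j, m⟩ _
    rw [hAC]
    rw [Matrix.kroneckerMap_apply]
    simp only [Matrix.smul_apply, smul_eq_mul]
    field_simp
  · intro g hg
    exact hmem g (hR g hg)

end Cfsg.Agent.H29.Fm
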