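import Mathlib
import Cfsg.Agent.H29_Fm9

set_option autoImplicit false

/-! forms and subfields -/

namespace Cfsg.Agent.H29.Fm

open Matrix Module Cfsg.Geo Cfsg.Agent.H29.Clifford Cfsg.Agent.H29.Asc Cfsg.Agent.H29.AscF Cfsg.Agent.H29.Trv
  Cfsg.Agent.H29.AscT
open scoped Kronecker

variable {F : Type*} [Field F] {n k m : ℕ}
variable {τ : F ≃+* F} {ε : F} {f : (Fin n → F) → (Fin n → F) → F}

theorem subfield_mem_iff [Fintype F] (F₁ : Subfield F) (x : F) : x ∈ F₁ ↔ x ^ Nat.card F₁ = x := by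
  classical
  have h1 : 1 < Nat.card F₁ := Finite.one_lt_card
  let N := Nat.card F₁
  have hK : ∀ y ∈ F₁, y ^ N = y := by
    intro y hy
    have := FiniteField.pow_card (⟨y, hy⟩ : F₁)
    rw [← Nat.card_eq_fintype_card] at this
    exact congrArg Subtype.val this
  constructor
  · exact hK x
  · intro hx
    let p : Polynomial F := Polynomial.X ^ N - Polynomial.X
    have hp : p ≠ 0 := FiniteField.X_pow_card_sub_X_ne_zero F h1
    have hdeg : p.natDegree = N := FiniteField.X_pow_card_sub_X_natDegree_eq F h1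
    let T : Set F := {y | y ^ N = y}
    have hT : T ⊆ (p.roots.toFinset : Set F) := by
      intro y hy
      rw [Finset.mem_coe, Multiset.mem_toFinset, Polynomial.mem_roots hp]
      show Polynomial.IsRoot p y
      rw [Polynomial.IsRoot.def]
      simp only [p, Polynomial.eval_sub, Polynomial.eval_pow, Polynomial.eval_X]
      rw [show y ^ N = y from hy, sub_self]
    have hTN : T.ncard ≤ N := by
      calc T.ncard ≤ (p.roots.toFinset : Set F).ncard := Set.ncard_le_ncard hT (Finset.finite_toSet _)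
        _ = p.roots.toFinset.card := Set.ncard_coe_finset _
        _ ≤ p.roots.card := Multiset.toFinset_card_le _
        _ ≤ p.natDegree := Polynomial.card_roots' p
        _ = N := hdeg
    have hKT : (F₁ : Set F) ⊆ T := fun y hy => hK y hy
    have heq := Set.eq_of_subset_of_ncard_le hKT hTN (Set.toFinite _)
    have : x ∈ T := hx
    rw [← heq] at this
    exact this

/-- the power map fixing a subfield -/
theorem exists_phi [Fintype F] (F₁ : Subfield F) : ∃ φ : F →+* F, (∀ x, φ x = x ^ Nat.card F₁) ∧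
    ∀ x, x ∈ F₁ ↔ φ x = x := by
  classical
  obtain ⟨p, hp⟩ := CharP.exists F
  haveI : Fact p.Prime := ⟨CharP.char_is_prime F p⟩
  haveI : CharP F₁ p := by
    constructor
    intro x
    rw [← CharP.cast_eq_zero_iff F p]
    constructor
    · intro h
      have := congrArg Subtype.val h
      simpa using this
    · intro h
      apply Subtype.ext
      simpa using h
  obtain ⟨m, hp', hm⟩ := FiniteField.card F₁ p
  have hφ : ∀ x, iterateFrobenius F p m x = x ^ Nat.card F₁ := by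
    intro x
    rw [iterateFrobenius_def, Nat.card_eq_fintype_card, hm]
  refine ⟨iterateFrobenius F p m, hφ, ?_⟩
  intro x
  rw [hφ]
  exact subfield_mem_iff F₁ x

/-- the gram matrix of a form invariant under an absolutely irreducible rational group -/
theorem rational_gram [Fintype F] (hn : 0 < n) (h : SFm τ ε f) {P : Subgroup (GL (Fin n) F)} (henv : env P = ⊤)
    (F₁ : Subfield F) (B : GL (Fin n) F)
    (hB : ∀ s ∈ P, ∀ i j, ((B⁻¹ * s * B : GL (Fin n) F) : Matrix (Fin n) (Fin n) F) i j ∈ F₁)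
    (hsim : ∀ s ∈ P, ∃ c ∈ F₁, c ≠ 0 ∧ ∀ u v, f ((s : Matrix (Fin n) (Fin n) F) *ᵥ u)
      ((s : Matrix (Fin n) (Fin n) F) *ᵥ v) = c * f u v) :
    ∃ i₀ j₀ : Fin n, f ((B : Matrix (Fin n) (Fin n) F) *ᵥ Pi.single i₀ 1)
        ((B : Matrix (Fin n) (Fin n) F) *ᵥ Pi.single j₀ 1) ≠ 0 ∧
      ∀ i j, (f ((B : Matrix (Fin n) (Fin n) F) *ᵥ Pi.single i₀ 1)
        ((B : Matrix (Fin n) (Fin n) F) *ᵥ Pi.single j₀ 1))⁻¹ *
        f ((B : Matrix (Fin n) (Fin n) F) *ᵥ Pi.single i 1) ((B : Matrix (Fin n) (Fin n) F) *ᵥ Pi.single j 1) ∈ F₁ := by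
  classical
  obtain ⟨φ, hφ, hφm⟩ := exists_phi F₁
  haveI : Nonempty (Fin n) := ⟨⟨0, hn⟩⟩
  have hφτ : ∀ x, φ (τ x) = τ (φ x) := by
    intro x; rw [hφ, hφ, map_pow]
  -- the gram matrix
  set X : Matrix (Fin n) (Fin n) F := fun i j => f ((B : Matrix (Fin n) (Fin n) F) *ᵥ Pi.single i 1)
    ((B : Matrix (Fin n) (Fin n) F) *ᵥ Pi.single j 1) with hX
  have hXf : ∀ u v, f ((B : Matrix (Fin n) (Fin n) F) *ᵥ u) ((B : Matrix (Fin n) (Fin n) F) *ᵥ v) =
      formOfGram τ X u v := by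
    intro u v
    have h3 : ∀ (u : Fin n → F), (B : Matrix (Fin n) (Fin n) F) *ᵥ u =
        ∑ i, u i • ((B : Matrix (Fin n) (Fin n) F) *ᵥ Pi.single i 1) := by
      intro u
      conv_lhs => rw [pi_eq_sum_univ' u]
      have h4 : ∀ (s : Finset (Fin n)) (v : Fin n → (Fin n → F)),
        (B : Matrix (Fin n) (Fin n) F) *ᵥ (∑ i ∈ s, v i) = ∑ i ∈ s, (B : Matrix (Fin n) (Fin n) F) *ᵥ (v i) :=
        fun s v => map_sum (Matrix.mulVecLin (B : Matrix (Fin n) (Fin n) F)) v s
      rw [h4]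
      simp only [Matrix.mulVec_smul]
    rw [h3 u, h3 v, h.sum_left]
    apply Finset.sum_congr rfl
    intro a _
    rw [h.sum_right]
    apply Finset.sum_congr rfl
    intro c _
    rw [h.smul_left, h.smul_right]
    show _ = u a * X a c * τ (v c)
    rw [hX]
    ring
  have hXdet : X.det ≠ 0 := by
    intro h0
    obtain ⟨v, hv, hv0⟩ := Matrix.exists_mulVec_eq_zero_iff.2 h0
    have hw : (B : Matrix (Fin n) (Fin n) F) *ᵥ (fun i => τ (v i)) ≠ 0 := by
      intro h1
      apply hv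
      have h2 := congrArg (fun w => ((B⁻¹ : GL (Fin n) F) : Matrix (Fin n) (Fin n) F) *ᵥ w) h1
      simp only [Matrix.mulVec_mulVec, ← Units.val_mul, inv_mul_cancel, Units.val_one, Matrix.one_mulVec,
        Matrix.mulVec_zero] at h2
      funext i
      exact (map_eq_zero τ).1 (congrFun h2 i)
    obtain ⟨x, hx⟩ := h.nd _ hw
    apply hx
    have h3 : x = (B : Matrix (Fin n) (Fin n) F) *ᵥ (((B⁻¹ : GL (Fin n) F) : Matrix (Fin n) (Fin n) F) *ᵥ x) := by
      rw [Matrix.mulVec_mulVec, ← Units.val_mul, mul_inv_cancel, Units.val_one, Matrix.one_mulVec]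
    rw [h3, hXf, formOfGram_eq]
    have h4 : (fun i => τ (τ (v i))) = v := by funext i; exact h.inv _
    rw [h4, hv0, dotProduct_zero]
  have hBB : ((B⁻¹ : GL (Fin n) F) : Matrix (Fin n) (Fin n) F) * (B : Matrix (Fin n) (Fin n) F) = 1 := by
    rw [← Units.val_mul, inv_mul_cancel, Units.val_one]
  have hBB' : (B : Matrix (Fin n) (Fin n) F) * ((B⁻¹ : GL (Fin n) F) : Matrix (Fin n) (Fin n) F) = 1 := by
    rw [← Units.val_mul, mul_inv_cancel, Units.val_one]
  have hmapmul : ∀ (ψ : F →+* F) (X Y : Matrix (Fin n) (Fin n) F), (X * Y).map ψ = X.map ψ * Y.map ψ := by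
    intro ψ X Y
    ext p q
    show ψ (∑ r, X p r * Y r q) = ∑ r, ψ (X p r) * ψ (Y r q)
    rw [map_sum]
    apply Finset.sum_congr rfl
    intro r _
    rw [map_mul]
  -- invariance
  have hinvX : ∀ s ∈ P, ∃ c : F, c ≠ 0 ∧ φ c = c ∧
      ((B⁻¹ * s * B : GL (Fin n) F) : Matrix (Fin n) (Fin n) F)ᵀ * X *
        ((B⁻¹ * s * B : GL (Fin n) F) : Matrix (Fin n) (Fin n) F).map τ = c • X := by
    intro s hs
    obtain ⟨c, hc, hc0, hcs⟩ := hsim s hs
    refine ⟨c, hc0, (hφm c).1 hc, ?_⟩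
    set M := ((B⁻¹ * s * B : GL (Fin n) F) : Matrix (Fin n) (Fin n) F) with hM
    have hBM : (B : Matrix (Fin n) (Fin n) F) * M = (s : Matrix (Fin n) (Fin n) F) * (B : Matrix (Fin n) (Fin n) F) := by
      rw [hM, ← Units.val_mul, ← Units.val_mul]
      congr 1
      group
    have h5 : ∀ u v, formOfGram τ (Mᵀ * X * M.map τ) u v = formOfGram τ (c • X) u v := by
      intro u v
      rw [← conj_sum, ← hXf, Matrix.mulVec_mulVec, Matrix.mulVec_mulVec, hBM, ← Matrix.mulVec_mulVec,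
        ← Matrix.mulVec_mulVec, hcs, hXf, formOfGram_eq, formOfGram_eq, Matrix.smul_mulVec, dotProduct_smul,
        smul_eq_mul]
    have h6 : gramMatrix (formOfGram τ (Mᵀ * X * M.map τ)) = gramMatrix (formOfGram τ (c • X)) := by
      ext i j
      exact h5 _ _
    rwa [gram_formOfGram, gram_formOfGram] at h6
  let Γ : Bool → Matrix (Fin n) (Fin n) F := fun t => if t then X else X.map φ
  have hMφ : ∀ s ∈ P, ((B⁻¹ * s * B : GL (Fin n) F) : Matrix (Fin n) (Fin n) F).map φ =
      ((B⁻¹ * s * B : GL (Fin n) F) : Matrix (Fin n) (Fin n) F) := by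
    intro s hs
    ext i j
    exact (hφm _).1 (hB s hs i j)
  have hinvΓ : ∀ s ∈ P, ∃ c : F, c ≠ 0 ∧ ∀ t,
      ((B⁻¹ * s * B : GL (Fin n) F) : Matrix (Fin n) (Fin n) F)ᵀ * Γ t *
        ((B⁻¹ * s * B : GL (Fin n) F) : Matrix (Fin n) (Fin n) F).map τ = c • Γ t := by
    intro s hs
    obtain ⟨c, hc0, hc1, hc2⟩ := hinvX s hs
    refine ⟨c, hc0, ?_⟩
    intro t
    cases t
    · show _ * X.map φ * _ = c • X.map φ
      have h7 : (((B⁻¹ * s * B : GL (Fin n) F) : Matrix (Fin n) (Fin n) F)ᵀ * X *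
        ((B⁻¹ * s * B : GL (Fin n) F) : Matrix (Fin n) (Fin n) F).map τ).map φ = (c • X).map φ := by rw [hc2]
      rw [hmapmul, hmapmul] at h7
      have h8 : (((B⁻¹ * s * B : GL (Fin n) F) : Matrix (Fin n) (Fin n) F)ᵀ).map φ =
          ((B⁻¹ * s * B : GL (Fin n) F) : Matrix (Fin n) (Fin n) F)ᵀ := by
        rw [Matrix.transpose_map, hMφ s hs]
      have h9 : (((B⁻¹ * s * B : GL (Fin n) F) : Matrix (Fin n) (Fin n) F).map τ).map φ =
          ((B⁻¹ * s * B : GL (Fin n) F) : Matrix (Fin n) (Fin n) F).map τ := by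
        ext i j
        show φ (τ _) = τ _
        rw [hφτ]
        congr 1
        exact (hφm _).1 (hB s hs i j)
      have h10 : (c • X).map φ = c • X.map φ := by
        ext i j
        show φ (c * X i j) = c * φ (X i j)
        rw [map_mul, hc1]
      rw [h8, h9, h10] at h7
      exact h7
    · exact hc2
  have h1 : ∀ x : Matrix (Fin n) (Fin n) F, ∃ y : Matrix (Fin n) (Fin n) F, ∀ t, xᵀ * Γ t = Γ t * y.map τ := by
    have key : ∀ r ∈ Submodule.span F (tl n F '' matrixSet P), ∃ y : Matrix (Fin n) (Fin n) F, ∀ t,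
        (((B⁻¹ : GL (Fin n) F) : Matrix (Fin n) (Fin n) F) * (tl n F).symm r * (B : Matrix (Fin n) (Fin n) F))ᵀ * Γ t =
          Γ t * y.map τ := by
      intro r hr
      induction hr using Submodule.span_induction with
      | mem r hr =>
        obtain ⟨_, ⟨s, hs, rfl⟩, rfl⟩ := hr
        obtain ⟨c, hc0, hc⟩ := hinvΓ s⁻¹ (P.inv_mem hs)
        set M := ((B⁻¹ * s⁻¹ * B : GL (Fin n) F) : Matrix (Fin n) (Fin n) F) with hM
        refine ⟨τ c⁻¹ • M, ?_⟩
        intro t
        rw [AlgEquiv.symm_apply_apply]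
        have e1 : ((B⁻¹ : GL (Fin n) F) : Matrix (Fin n) (Fin n) F) * (s : Matrix (Fin n) (Fin n) F) *
            (B : Matrix (Fin n) (Fin n) F) = ((B⁻¹ * s * B : GL (Fin n) F) : Matrix (Fin n) (Fin n) F) := by
          rw [Units.val_mul, Units.val_mul]
        rw [e1]
        have e2 : ((B⁻¹ * s * B : GL (Fin n) F) : Matrix (Fin n) (Fin n) F)ᵀ * Mᵀ = 1 := by
          rw [← Matrix.transpose_mul, hM, ← Units.val_mul]
          have : B⁻¹ * s⁻¹ * B * (B⁻¹ * s * B) = 1 := by group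
          rw [this, Units.val_one, Matrix.transpose_one]
        have e3 : (τ c⁻¹ • M).map τ = c⁻¹ • M.map τ := by
          ext i j
          show τ (τ c⁻¹ * M i j) = c⁻¹ * τ (M i j)
          rw [map_mul, h.inv]
        rw [e3, Matrix.mul_smul]
        have e4 : ((B⁻¹ * s * B : GL (Fin n) F) : Matrix (Fin n) (Fin n) F)ᵀ * (Mᵀ * Γ t * M.map τ) =
            Γ t * M.map τ := by
          rw [← mul_assoc, ← mul_assoc, e2, one_mul]
        rw [hc t, Matrix.mul_smul] at e4
        rw [← e4, smul_smul, inv_mul_cancel₀ hc0, one_smul]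
      | zero =>
        refine ⟨0, fun t => ?_⟩
        rw [map_zero, mul_zero, zero_mul, Matrix.transpose_zero, zero_mul]
        have : (0 : Matrix (Fin n) (Fin n) F).map τ = 0 := by ext i j; exact map_zero τ
        rw [this, mul_zero]
      | add x y _ _ hx hy =>
        obtain ⟨x', hx'⟩ := hx
        obtain ⟨y', hy'⟩ := hy
        refine ⟨x' + y', fun t => ?_⟩
        have e5 : (x' + y').map τ = x'.map τ + y'.map τ := by ext i j; exact map_add τ _ _
        rw [map_add, mul_add, add_mul, Matrix.transpose_add, add_mul, hx' t, hy' t, e5, mul_add]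
      | smul c x _ hx =>
        obtain ⟨x', hx'⟩ := hx
        refine ⟨τ c • x', fun t => ?_⟩
        have e5 : (τ c • x').map τ = c • x'.map τ := by
          ext i j
          show τ (τ c * x' i j) = c * τ (x' i j)
          rw [map_mul, h.inv]
        rw [map_smul, Matrix.mul_smul, Matrix.smul_mul, Matrix.transpose_smul, Matrix.smul_mul, hx' t, e5,
          Matrix.mul_smul]
    intro x
    obtain ⟨y, hy⟩ := key (tl n F ((B : Matrix (Fin n) (Fin n) F) * x * ((B⁻¹ : GL (Fin n) F) : Matrix (Fin n) (Fin n) F))) (by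
      rw [← env_eq_span, henv]
      trivial)
    refine ⟨y, fun t => ?_⟩
    have := hy t
    rw [AlgEquiv.symm_apply_apply] at this
    have e6 : ((B⁻¹ : GL (Fin n) F) : Matrix (Fin n) (Fin n) F) * ((B : Matrix (Fin n) (Fin n) F) * x *
        ((B⁻¹ : GL (Fin n) F) : Matrix (Fin n) (Fin n) F)) * (B : Matrix (Fin n) (Fin n) F) = x := by
      calc ((B⁻¹ : GL (Fin n) F) : Matrix (Fin n) (Fin n) F) * ((B : Matrix (Fin n) (Fin n) F) * x *
        ((B⁻¹ : GL (Fin n) F) : Matrix (Fin n) (Fin n) F)) * (B : Matrix (Fin n) (Fin n) F)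
          = (((B⁻¹ : GL (Fin n) F) : Matrix (Fin n) (Fin n) F) * (B : Matrix (Fin n) (Fin n) F)) * x *
            (((B⁻¹ : GL (Fin n) F) : Matrix (Fin n) (Fin n) F) * (B : Matrix (Fin n) (Fin n) F)) := by
              simp only [mul_assoc]
        _ = x := by rw [hBB, one_mul, mul_one]
    rwa [e6] at this
  have hXu : IsUnit X.det := isUnit_iff_ne_zero.2 hXdet
  have h2 : ∀ y : Matrix (Fin n) (Fin n) F, ∃ x : Matrix (Fin n) (Fin n) F, ∀ t, xᵀ * Γ t = Γ t * y.map τ := by
    intro y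
    refine ⟨(X * y.map τ * X⁻¹)ᵀ, ?_⟩
    obtain ⟨y', hy'⟩ := h1 (X * y.map τ * X⁻¹)ᵀ
    have e1 := hy' true
    have e2 : X * y.map τ = X * y'.map τ := by
      have : (X * y.map τ * X⁻¹)ᵀᵀ * X = X * y'.map τ := e1
      rw [Matrix.transpose_transpose, mul_assoc, Matrix.nonsing_inv_mul _ hXu, mul_one] at this
      exact this
    have e3 : y.map τ = y'.map τ := by
      have := congrArg (fun Z => X⁻¹ * Z) e2
      simp only [← mul_assoc] at this
      rw [Matrix.nonsing_inv_mul _ hXu, one_mul, one_mul] at this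
      exact this
    intro t
    rw [hy' t, e3]
  have hX0 : X ≠ 0 := by
    intro h0
    apply hXdet
    rw [h0, Matrix.det_zero]
  obtain ⟨-, c, hc⟩ := gram_scalar Γ τ h.inv h1 h2 true hX0
  have hcφ : ∀ i j, φ (X i j) = c false * X i j := by
    intro i j
    exact congrFun (congrFun (hc false) i) j
  obtain ⟨i₀, j₀, h00⟩ : ∃ i j, X i j ≠ 0 := by
    by_contra hcon
    push Not at hcon
    apply hX0
    ext i j
    exact hcon i j
  refine ⟨i₀, j₀, h00, ?_⟩
  intro i j
  rw [hφm]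
  show φ ((X i₀ j₀)⁻¹ * X i j) = (X i₀ j₀)⁻¹ * X i j
  have hc0 : c false ≠ 0 := by
    intro h0
    have := hcφ i₀ j₀
    rw [h0, zero_mul] at this
    exact h00 ((map_eq_zero φ).1 this)
  rw [map_mul, map_inv₀, hcφ, hcφ]
  field_simp

end Cfsg.Agent.H29.Fm
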