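import Mathlib
import Cfsg.Agent.H29_Fm10
import Cfsg.Agent.H29_AscV

set_option autoImplicit false

/-! unitary forms and subfields -/

namespace Cfsg.Agent.H29.Fm

open Matrix Module Cfsg.Geo Cfsg.Agent.H29.Clifford Cfsg.Agent.H29.Asc Cfsg.Agent.H29.AscF Cfsg.Agent.H29.Trv
  Cfsg.Agent.H29.AscT
open scoped Kronecker

variable {F : Type*} [Field F] {n k m : ℕ}
variable {τ : F ≃+* F} {ε : F} {f : (Fin n → F) → (Fin n → F) → F}

theorem tau_mem [Fintype F] {F₁ : Subfield F} (τ : F ≃+* F) {x : F} (hx : x ∈ F₁) : τ x ∈ F₁ := by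
  rw [subfield_mem_iff] at hx ⊢
  rw [← map_pow, hx]

theorem expand (h : SFm τ ε f) (B : GL (Fin n) F) (u v : Fin n → F) :
    f ((B : Matrix (Fin n) (Fin n) F) *ᵥ u) ((B : Matrix (Fin n) (Fin n) F) *ᵥ v) =
      ∑ i, ∑ j, u i * f ((B : Matrix (Fin n) (Fin n) F) *ᵥ Pi.single i 1)
    ((B : Matrix (Fin n) (Fin n) F) *ᵥ Pi.single j 1) * τ (v j) := by
  have h3 : ∀ (u : Fin n → F), (B : Matrix (Fin n) (Fin n) F) *ᵥ u =
      ∑ i, u i • ((B : Matrix (Fin n) (Fin n) F) *ᵥ Pi.single i 1) := by
    intro u
    conv_lhs => rw [pi_eq_sum_univ' u]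
    have h4 : ∀ (s : Finset (Fin n)) (v : Fin n → (Fin n → F)),
      (B : Matrix (Fin n) (Fin n) F) *ᵥ (∑ i ∈ s, v i) = ∑ i ∈ s, (B : Matrix (Fin n) (Fin n) F) *ᵥ (v i) :=
      fun s v => map_sum (Matrix.mulVecLin (B : Matrix (Fin n) (Fin n) F)) v s
    rw [h4]
    simp only [Matrix.mulVec_smul]
  rw [h3 u, h3 v, h.sum_left]
  apply Finset.sum_congr rfl
  intro a _
  rw [h.sum_right]
  apply Finset.sum_congr rfl
  intro c _
  rw [h.smul_left, h.smul_right]
  ring

theorem rational_of_entries [Fintype F] (h : SFm τ ε f) {F₁ : Subfield F} {B : GL (Fin n) F} {ζ : F}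
    (H : ∀ i j, ζ * f ((B : Matrix (Fin n) (Fin n) F) *ᵥ Pi.single i 1)
      ((B : Matrix (Fin n) (Fin n) F) *ᵥ Pi.single j 1) ∈ F₁) : IsFormRationalStructure f F₁ ζ B := by
  intro u v hu hv
  rw [expand h, Finset.mul_sum]
  apply Subfield.sum_mem
  intro i _
  rw [Finset.mul_sum]
  apply Subfield.sum_mem
  intro j _
  have : ζ * (u i * f ((B : Matrix (Fin n) (Fin n) F) *ᵥ Pi.single i 1)
      ((B : Matrix (Fin n) (Fin n) F) *ᵥ Pi.single j 1) * τ (v j)) =
      u i * (ζ * f ((B : Matrix (Fin n) (Fin n) F) *ᵥ Pi.single i 1)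
      ((B : Matrix (Fin n) (Fin n) F) *ᵥ Pi.single j 1)) * τ (v j) := by ring
  rw [this]
  exact F₁.mul_mem (F₁.mul_mem (hu i) (H i j)) (tau_mem τ (hv j))

/-- rescaling the structure -/
theorem subfield_scale {F₁ : Subfield F} {B : GL (Fin n) F} (d : Fˣ) :
    subfieldSubgroup F₁ B ≤ subfieldSubgroup F₁ (sc n F d * B) := by
  intro g hg
  rw [mem_subfieldSubgroup_iff] at hg ⊢
  have : (sc n F d * B)⁻¹ * g * (sc n F d * B) = B⁻¹ * g * B := by
    have e1 := sc_comm (n := n) d g
    calc (sc n F d * B)⁻¹ * g * (sc n F d * B) = B⁻¹ * (sc n F d)⁻¹ * (g * sc n F d) * B := by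
          rw [_root_.mul_inv_rev]; simp only [mul_assoc]
      _ = B⁻¹ * g * B := by rw [← e1]; simp only [mul_assoc, inv_mul_cancel_left]
  rw [this]
  exact hg

/-- the three subfield types for unitary groups -/
theorem subfield_unitary [Fintype F] (hn : 2 ≤ n) (h : SFm τ 1 f) (hτ : τ ≠ RingEquiv.refl F) {q : ℕ}
    (hq : Fintype.card F = q ^ 2) (hτq : ∀ x, τ x = x ^ q) {P : Subgroup (GL (Fin n) F)} (henv : env P = ⊤)
    {F₀ : Subfield F} (hF₀ : F₀ ≠ ⊤) (hreal : RealisableOver F₀ (matrixSet P))
    (hsim : ∀ s ∈ P, ∃ c ∈ F₀, c ≠ 0 ∧ ∀ u v, f ((s : Matrix (Fin n) (Fin n) F) *ᵥ u)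
      ((s : Matrix (Fin n) (Fin n) F) *ᵥ v) = c * f u v) :
    ∃ (F₁ : Subfield F) (Q : GL (Fin n) F), (∀ g : GL (Fin n) F, (∀ x ∈ P, g * x * g⁻¹ ∈ P) →
        g ∈ subfieldSubgroup F₁ Q) ∧
      ((∃ r : ℕ, r.Prime ∧ Odd r ∧ Fintype.card F = Nat.card F₁ ^ r ∧ IsFormRationalStructure f F₁ 1 Q) ∨
       (Odd q ∧ Fintype.card F = Nat.card F₁ ^ 2 ∧ IsFormRationalStructure f F₁ 1 Q) ∨
       (Even n ∧ Fintype.card F = Nat.card F₁ ^ 2 ∧ ∃ ζ : F, ζ ≠ 0 ∧ ζ + ζ ^ q = 0 ∧
        IsFormRationalStructure f F₁ ζ Q ∧
        (∀ u : Fin n → F, (∀ i, u i ∈ F₁) → f ((Q : Matrix (Fin n) (Fin n) F) *ᵥ u)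
          ((Q : Matrix (Fin n) (Fin n) F) *ᵥ u) = 0))) := by
  classical
  have hn0 : 0 < n := by omega
  haveI : Nonempty (Fin n) := ⟨⟨0, hn0⟩⟩
  obtain ⟨F₁, r, hle, hr, hcard⟩ := exists_max_subfield F₀ hF₀
  obtain ⟨B', hB'⟩ := hreal
  set B := B'⁻¹ with hBdef
  have hmem : ∀ g : GL (Fin n) F, (∀ x ∈ P, g * x * g⁻¹ ∈ P) → g ∈ subfieldSubgroup F₁ B :=
    fun g hg => subfield_mono hle _ (normaliser_le_subfield F₀ hn0 henv B' hB' hg)
  have hB : ∀ s ∈ P, ∀ i j, ((B⁻¹ * s * B : GL (Fin n) F) : Matrix (Fin n) (Fin n) F) i j ∈ F₁ := by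
    intro s hs i j
    rw [hBdef, inv_inv, Units.val_mul, Units.val_mul]
    exact hle (hB' _ ⟨s, hs, rfl⟩ i j)
  have hsim' : ∀ s ∈ P, ∃ c ∈ F₁, c ≠ 0 ∧ ∀ u v, f ((s : Matrix (Fin n) (Fin n) F) *ᵥ u)
      ((s : Matrix (Fin n) (Fin n) F) *ᵥ v) = c * f u v := by
    intro s hs
    obtain ⟨c, hc, h1⟩ := hsim s hs
    exact ⟨c, hle hc, h1⟩
  obtain ⟨i₀, j₀, h00, hent⟩ := rational_gram hn0 h henv F₁ B hB hsim'
  set X : Fin n → Fin n → F := fun i j => f ((B : Matrix (Fin n) (Fin n) F) *ᵥ Pi.single i 1)
    ((B : Matrix (Fin n) (Fin n) F) *ᵥ Pi.single j 1) with hX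
  have hXh : ∀ i j, X i j = τ (X j i) := by
    intro i j
    have := h.herm ((B : Matrix (Fin n) (Fin n) F) *ᵥ Pi.single i 1) ((B : Matrix (Fin n) (Fin n) F) *ᵥ Pi.single j 1)
    rwa [one_mul] at this
  set ζ := X i₀ j₀ with hζ
  have hζ0 : ζ ≠ 0 := h00
  have hent' : ∀ i j, ζ⁻¹ * X i j ∈ F₁ := hent
  -- λ = τ(ζ⁻¹ X j₀ i₀) = ζ / τ ζ
  have hlam1 : τ (ζ⁻¹ * X j₀ i₀) = ζ * (τ ζ)⁻¹ := by
    have hz : τ (X j₀ i₀) = ζ := (hXh i₀ j₀).symm
    rw [map_mul, map_inv₀, hz, mul_comm]
  have hlamF : ζ * (τ ζ)⁻¹ ∈ F₁ := by
    rw [← hlam1]; exact tau_mem τ (hent' _ _)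
  have hτζ0 : τ ζ ≠ 0 := (map_ne_zero τ).2 hζ0
  rcases hr.eq_two_or_odd' with hr2 | hrodd
  · -- r = 2
    subst hr2
    have hNq : Nat.card F₁ = q := by
      rw [hcard] at hq
      exact Nat.pow_left_injective (n := 2) (by norm_num) hq
    have hfix : ∀ x, x ∈ F₁ ↔ τ x = x := by
      intro x
      rw [subfield_mem_iff, hNq, hτq]
    set μ := ζ * (τ ζ)⁻¹ with hμ
    have hμ2 : μ * μ = 1 := by
      have h1 := (hfix _).1 hlamF
      have h2 : τ μ = μ⁻¹ := by
        rw [hμ, map_mul, map_inv₀, h.inv, mul_inv, inv_inv, mul_comm]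
      rw [h1] at h2
      have hμ0 : μ ≠ 0 := mul_ne_zero hζ0 (inv_ne_zero hτζ0)
      have h5 := mul_inv_cancel₀ hμ0
      rwa [← h2] at h5
    have hμ1 : μ = 1 ∨ μ = -1 := by
      have : (μ - 1) * (μ + 1) = 0 := by linear_combination hμ2
      rcases mul_eq_zero.1 this with h | h
      · left; exact sub_eq_zero.1 h
      · right; exact eq_neg_of_add_eq_zero_left h
    have hτζ : ζ = μ * τ ζ := by rw [hμ, mul_assoc, inv_mul_cancel₀ hτζ0, mul_one]
    have hYsym : ∀ i j, X j i = μ * X i j := by
      intro i j
      have h1 := (hfix _).1 (hent' j i)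
      have h3 : τ (ζ⁻¹ * X j i) = (τ ζ)⁻¹ * X i j := by
        have hz : τ (X j i) = X i j := (hXh i j).symm
        rw [map_mul, map_inv₀, hz]
      rw [h1] at h3
      have h4 : X j i = ζ * (τ ζ)⁻¹ * X i j := by
        calc X j i = ζ * (ζ⁻¹ * X j i) := by rw [← mul_assoc, mul_inv_cancel₀ hζ0, one_mul]
          _ = ζ * ((τ ζ)⁻¹ * X i j) := by rw [h3]
          _ = _ := by rw [mul_assoc]
      exact h4
    by_cases h2 : (2 : F) = 0
    · -- even characteristic
      have hμ' : μ = 1 := by
        rcases hμ1 with h | h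
        · exact h
        · rw [h]
          linear_combination (-1 : F) * h2
      have hζF : τ ζ = ζ := by
        rw [hμ', one_mul] at hτζ; exact hτζ.symm
      have hXF : ∀ i j, X i j ∈ F₁ := by
        intro i j
        have := F₁.mul_mem ((hfix ζ).2 hζF) (hent' i j)
        rwa [← mul_assoc, mul_inv_cancel₀ hζ0, one_mul] at this
      -- the diagonal vanishes
      have hdiag : ∀ i, X i i = 0 := by
        -- square roots
        have hsq : ∀ x : F, ∃ y : F, y ^ 2 = x := by
          intro x
          have hinj : Function.Injective (fun y : F => y ^ 2) := by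
            intro a b hab
            have h5 : (a - b) ^ 2 = 0 := by
              have h6 : a ^ 2 = b ^ 2 := hab
              linear_combination h6 + (b ^ 2 - a * b) * h2
            exact sub_eq_zero.1 (pow_eq_zero_iff (n := 2) (by norm_num) |>.1 h5)
          exact (Finite.surjective_of_injective hinj) x
        choose y hy using fun i => hsq (X i i)
        have hinj2 : ∀ a b : F, a ^ 2 = b ^ 2 → a = b := by
          intro a b h6
          have h5 : (a - b) ^ 2 = 0 := by
            linear_combination h6 + (b ^ 2 - a * b) * h2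
          exact sub_eq_zero.1 (pow_eq_zero_iff (n := 2) (by norm_num) |>.1 h5)
        -- Y(u,u) = (Σ u_i y_i)^2 for u over F₁
        have hsumsq : ∀ (s : Finset (Fin n)) (w : Fin n → F), (∑ i ∈ s, w i) ^ 2 = ∑ i ∈ s, (w i) ^ 2 := by
          intro s w
          induction s using Finset.induction_on with
          | empty => simp
          | insert a s ha ih =>
            rw [Finset.sum_insert ha, Finset.sum_insert ha, ← ih]
            linear_combination (w a * ∑ i ∈ s, w i) * h2
        have hquad : ∀ u : Fin n → F, (∀ i, u i ∈ F₁) → f ((B : Matrix (Fin n) (Fin n) F) *ᵥ u)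
            ((B : Matrix (Fin n) (Fin n) F) *ᵥ u) = (∑ i, u i * y i) ^ 2 := by
          intro u hu
          rw [expand h, hsumsq]
          have h7 : ∀ i, τ (u i) = u i := fun i => (hfix _).1 (hu i)
          simp only [h7]
          -- off-diagonal terms cancel
          have h8 : ∀ (s : Finset (Fin n)), ∑ i ∈ s, ∑ j ∈ s, u i * X i j * u j = ∑ i ∈ s, (u i * y i) ^ 2 := by
            intro s
            induction s using Finset.induction_on with
            | empty => simp
            | insert a s ha ih =>
              rw [Finset.sum_insert ha, Finset.sum_insert ha]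
              have e1 : ∑ i ∈ s, ∑ j ∈ insert a s, u i * X i j * u j =
                  ∑ i ∈ s, u i * X i a * u a + ∑ i ∈ s, ∑ j ∈ s, u i * X i j * u j := by
                rw [← Finset.sum_add_distrib]
                apply Finset.sum_congr rfl
                intro i _
                rw [Finset.sum_insert ha]
              rw [e1, ih, Finset.sum_insert ha]
              have e2 : ∑ i ∈ s, u i * X i a * u a = ∑ j ∈ s, u a * X a j * u j := by
                apply Finset.sum_congr rfl
                intro j _
                rw [hYsym a j, hμ']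
                ring
              rw [e2, mul_pow, hy a]
              linear_combination (∑ j ∈ s, u a * X a j * u j) * h2
          exact h8 Finset.univ
        -- invariance
        let ψ : (Fin n → F) →ₗ[F] F := ∑ i, y i • (LinearMap.proj i : (Fin n → F) →ₗ[F] F)
        have hψ : ∀ u, ψ u = ∑ i, u i * y i := by
          intro u
          simp only [ψ, LinearMap.sum_apply, LinearMap.smul_apply, LinearMap.proj_apply, smul_eq_mul]
          apply Finset.sum_congr rfl
          intro i _
          ring
        let W : Submodule F (Fin n → F) := (LinearMap.ker ψ).map (Matrix.toLin' (B : Matrix (Fin n) (Fin n) F))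
        have hBB : ((B⁻¹ : GL (Fin n) F) : Matrix (Fin n) (Fin n) F) * (B : Matrix (Fin n) (Fin n) F) = 1 := by
          rw [← Units.val_mul, inv_mul_cancel, Units.val_one]
        have hWst : W = ⊥ ∨ W = ⊤ := by
          apply (absIrr_of_env_top henv).1
          rintro _ ⟨s, hs, rfl⟩ _ ⟨_, ⟨u, hu, rfl⟩, rfl⟩
          obtain ⟨c, hcF, hc0, hc⟩ := hsim' s hs
          obtain ⟨c', hc'⟩ := hsq c
          set M := ((B⁻¹ * s * B : GL (Fin n) F) : Matrix (Fin n) (Fin n) F) with hM
          have hBM : (B : Matrix (Fin n) (Fin n) F) * M = (s : Matrix (Fin n) (Fin n) F) * (B : Matrix (Fin n) (Fin n) F) := by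
            rw [hM, ← Units.val_mul, ← Units.val_mul]
            congr 1
            group
          refine ⟨M *ᵥ u, ?_, ?_⟩
          · have hψM : ψ.comp (Matrix.mulVecLin M) = c' • ψ := by
              apply (Pi.basisFun F (Fin n)).ext
              intro j
              rw [Pi.basisFun_apply, LinearMap.comp_apply, LinearMap.smul_apply, Matrix.mulVecLin_apply, smul_eq_mul]
              apply hinj2
              have hej : ∀ i, (Pi.single j (1 : F) : Fin n → F) i ∈ F₁ := by
                intro i
                by_cases hij : i = j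
                · subst hij; rw [Pi.single_eq_same]; exact F₁.one_mem
                · rw [Pi.single_eq_of_ne hij]; exact F₁.zero_mem
              have hMej : ∀ i, (M *ᵥ (Pi.single j (1 : F) : Fin n → F)) i ∈ F₁ := by
                intro i
                rw [Matrix.mulVec_single_one]
                exact hB s hs i j
              rw [hψ, mul_pow, hψ, ← hquad _ hMej, ← hquad _ hej, Matrix.mulVec_mulVec, hBM, ← Matrix.mulVec_mulVec,
                hc, hc']
            show ψ (M *ᵥ u) = 0
            have := LinearMap.congr_fun hψM u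
            rw [LinearMap.comp_apply, LinearMap.smul_apply, Matrix.mulVecLin_apply] at this
            rw [this]
            have hu' : ψ u = 0 := hu
            rw [hu', smul_zero]
          · rw [Matrix.toLin'_apply, Matrix.toLin'_apply, Matrix.toLin'_apply, Matrix.mulVec_mulVec,
              Matrix.mulVec_mulVec, hBM]
        have hBinj : Function.Injective (Matrix.toLin' (B : Matrix (Fin n) (Fin n) F)) := by
          intro a b hab
          rw [Matrix.toLin'_apply, Matrix.toLin'_apply] at hab
          have := congrArg (fun w => ((B⁻¹ : GL (Fin n) F) : Matrix (Fin n) (Fin n) F) *ᵥ w) hab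
          simpa only [Matrix.mulVec_mulVec, hBB, Matrix.one_mulVec] using this
        have hψ0 : ψ = 0 := by
          rcases hWst with h | h
          · exfalso
            have h1 : LinearMap.ker ψ = ⊥ := by
              rw [eq_bot_iff]
              intro u hu
              have : Matrix.toLin' (B : Matrix (Fin n) (Fin n) F) u ∈ W := ⟨u, hu, rfl⟩
              rw [h, Submodule.mem_bot] at this
              rw [Submodule.mem_bot]
              exact hBinj (by rw [this, map_zero])
            have h2 := LinearMap.finrank_range_add_finrank_ker ψ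
            rw [h1, finrank_bot, add_zero] at h2
            have h3 := Submodule.finrank_le (LinearMap.range ψ)
            rw [h2] at h3
            simp at h3
            omega
          · have h1 : LinearMap.ker ψ = ⊤ := by
              rw [eq_top_iff]
              intro u _
              have : Matrix.toLin' (B : Matrix (Fin n) (Fin n) F) u ∈ W := by rw [h]; trivial
              obtain ⟨u', hu', he⟩ := this
              rw [← hBinj he]
              exact hu'
            exact LinearMap.ker_eq_top.1 h1
        intro i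
        have := hψ (Pi.single i 1)
        rw [hψ0, LinearMap.zero_apply] at this
        have h9 : ∑ j, (Pi.single i (1 : F) : Fin n → F) j * y j = y i := by
          rw [Finset.sum_eq_single i]
          · rw [Pi.single_eq_same, one_mul]
          · intro j _ hj
            rw [Pi.single_eq_of_ne hj, zero_mul]
          · intro h; exact absurd (Finset.mem_univ _) h
        rw [h9] at this
        rw [← hy i, ← this]
        norm_num
      have halt : ∀ u : Fin n → F, (∀ i, u i ∈ F₁) → f ((B : Matrix (Fin n) (Fin n) F) *ᵥ u)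
          ((B : Matrix (Fin n) (Fin n) F) *ᵥ u) = 0 := by
        intro u hu
        rw [expand h]
        have h7 : ∀ i, τ (u i) = u i := fun i => (hfix _).1 (hu i)
        simp only [h7]
        have h8 : ∀ (s : Finset (Fin n)), ∑ i ∈ s, ∑ j ∈ s, u i * X i j * u j = 0 := by
          intro s
          induction s using Finset.induction_on with
          | empty => simp
          | insert a s ha ih =>
            rw [Finset.sum_insert ha, Finset.sum_insert ha]
            have e1 : ∑ i ∈ s, ∑ j ∈ insert a s, u i * X i j * u j =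
                ∑ i ∈ s, u i * X i a * u a + ∑ i ∈ s, ∑ j ∈ s, u i * X i j * u j := by
              rw [← Finset.sum_add_distrib]
              apply Finset.sum_congr rfl
              intro i _
              rw [Finset.sum_insert ha]
            rw [e1, ih, hdiag a]
            have e2 : ∑ i ∈ s, u i * X i a * u a = ∑ j ∈ s, u a * X a j * u j := by
              apply Finset.sum_congr rfl
              intro j _
              rw [hYsym a j, hμ']
              ring
            rw [e2]
            linear_combination (∑ j ∈ s, u a * X a j * u j) * h2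
        exact h8 Finset.univ
      refine ⟨F₁, B, hmem, Or.inr (Or.inr ⟨?_, hcard, 1, one_ne_zero, ?_, ?_, halt⟩)⟩
      · -- n is even
        have hsy : IsSymplecticForm (sf (RingHom.id F) (Matrix.of X)) := by
          have hskew : (Matrix.of X)ᵀ = -(Matrix.of X) := by
            ext i j
            show X j i = - X i j
            rw [hYsym i j, hμ']
            linear_combination (X i j) * h2
          have hdet : (Matrix.of X).det ≠ 0 := by
            intro h0
            obtain ⟨v, hv, hv0⟩ := Matrix.exists_mulVec_eq_zero_iff.2 h0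
            have hw : (B : Matrix (Fin n) (Fin n) F) *ᵥ (fun i => τ (v i)) ≠ 0 := by
              intro h1
              apply hv
              have h2 := congrArg (fun w => ((B⁻¹ : GL (Fin n) F) : Matrix (Fin n) (Fin n) F) *ᵥ w) h1
              simp only [Matrix.mulVec_mulVec, ← Units.val_mul, inv_mul_cancel, Units.val_one, Matrix.one_mulVec,
                Matrix.mulVec_zero] at h2
              funext i
              exact (map_eq_zero τ).1 (congrFun h2 i)
            obtain ⟨x, hx⟩ := h.nd _ hw
            apply hx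
            have h3 : x = (B : Matrix (Fin n) (Fin n) F) *ᵥ (((B⁻¹ : GL (Fin n) F) : Matrix (Fin n) (Fin n) F) *ᵥ x) := by
              rw [Matrix.mulVec_mulVec, ← Units.val_mul, mul_inv_cancel, Units.val_one, Matrix.one_mulVec]
            rw [h3, expand h]
            apply Finset.sum_eq_zero
            intro i _
            simp only [h.inv, mul_assoc]
            rw [← Finset.mul_sum]
            have : ∑ j, X i j * v j = 0 := congrFun hv0 i
            rw [this, mul_zero]
          refine ⟨⟨sf_add_left _ _, sf_smul_left _ _, sf_add_right _ _, fun c v x => sf_smul_right _ _ c v x⟩, ?_, ?_,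
            nondeg_of_det (σ := RingEquiv.refl F) hdet⟩
          · intro v w
            have e1 : ∀ (M : Matrix (Fin n) (Fin n) F) (v w : Fin n → F), sf (RingHom.id F) M v w = v ⬝ᵥ (M *ᵥ w) :=
              fun _ _ _ => rfl
            have hsw : sf (RingHom.id F) (Matrix.of X) v w = sf (RingHom.id F) (Matrix.of X)ᵀ w v := by
              rw [e1, e1, Matrix.dotProduct_mulVec, dotProduct_comm, Matrix.mulVec_transpose]
            rw [hsw, hskew, e1, e1, Matrix.neg_mulVec, dotProduct_neg]
          · exact alt_of_skew hskew hdiag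
        exact even_of_symp hsy
      · rw [one_pow]; linear_combination h2
      · apply rational_of_entries h
        intro i j
        rw [one_mul]
        exact hXF i j
    · have hqodd : Odd q := by
        have h3 := odd_card_of_two_ne h2
        rw [hq, pow_two] at h3
        exact (Nat.odd_mul.1 h3).1
      rcases hμ1 with hμ' | hμ'
      · -- orthogonal type
        have hζF : τ ζ = ζ := by
          rw [hμ', one_mul] at hτζ; exact hτζ.symm
        have hXF : ∀ i j, X i j ∈ F₁ := by
          intro i j
          have := F₁.mul_mem ((hfix ζ).2 hζF) (hent' i j)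
          rwa [← mul_assoc, mul_inv_cancel₀ hζ0, one_mul] at this
        refine ⟨F₁, B, hmem, Or.inr (Or.inl ⟨hqodd, hcard, ?_⟩)⟩
        apply rational_of_entries h
        intro i j
        rw [one_mul]
        exact hXF i j
      · -- symplectic type
        have hζF : τ ζ = -ζ := by
          rw [hμ'] at hτζ; linear_combination hτζ
        have hskewX : ∀ i j, X j i = - X i j := by
          intro i j
          rw [hYsym i j, hμ', neg_one_mul]
        have hdiag : ∀ i, X i i = 0 := by
          intro i
          have := hskewX i i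
          have h3 : (2 : F) * X i i = 0 := by linear_combination this
          exact (mul_eq_zero.1 h3).resolve_left h2
        refine ⟨F₁, B, hmem, Or.inr (Or.inr ⟨?_, hcard, ζ⁻¹, inv_ne_zero hζ0, ?_, ?_, ?_⟩)⟩
        · have hsy : IsSymplecticForm (sf (RingHom.id F) (Matrix.of X)) := by
            have hskew : (Matrix.of X)ᵀ = -(Matrix.of X) := by
              ext i j
              exact hskewX i j
            have hdet : (Matrix.of X).det ≠ 0 := by
              intro h0
              obtain ⟨v, hv, hv0⟩ := Matrix.exists_mulVec_eq_zero_iff.2 h0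
              have hw : (B : Matrix (Fin n) (Fin n) F) *ᵥ (fun i => τ (v i)) ≠ 0 := by
                intro h1
                apply hv
                have h2 := congrArg (fun w => ((B⁻¹ : GL (Fin n) F) : Matrix (Fin n) (Fin n) F) *ᵥ w) h1
                simp only [Matrix.mulVec_mulVec, ← Units.val_mul, inv_mul_cancel, Units.val_one, Matrix.one_mulVec,
                  Matrix.mulVec_zero] at h2
                funext i
                exact (map_eq_zero τ).1 (congrFun h2 i)
              obtain ⟨x, hx⟩ := h.nd _ hw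
              apply hx
              have h3 : x = (B : Matrix (Fin n) (Fin n) F) *ᵥ (((B⁻¹ : GL (Fin n) F) : Matrix (Fin n) (Fin n) F) *ᵥ x) := by
                rw [Matrix.mulVec_mulVec, ← Units.val_mul, mul_inv_cancel, Units.val_one, Matrix.one_mulVec]
              rw [h3, expand h]
              apply Finset.sum_eq_zero
              intro i _
              simp only [h.inv, mul_assoc]
              rw [← Finset.mul_sum]
              have : ∑ j, X i j * v j = 0 := congrFun hv0 i
              rw [this, mul_zero]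
            refine ⟨⟨sf_add_left _ _, sf_smul_left _ _, sf_add_right _ _, fun c v x => sf_smul_right _ _ c v x⟩, ?_, ?_,
              nondeg_of_det (σ := RingEquiv.refl F) hdet⟩
            · intro v w
              have e1 : ∀ (M : Matrix (Fin n) (Fin n) F) (v w : Fin n → F), sf (RingHom.id F) M v w = v ⬝ᵥ (M *ᵥ w) :=
                fun _ _ _ => rfl
              have hsw : sf (RingHom.id F) (Matrix.of X) v w = sf (RingHom.id F) (Matrix.of X)ᵀ w v := by
                rw [e1, e1, Matrix.dotProduct_mulVec, dotProduct_comm, Matrix.mulVec_transpose]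
              rw [hsw, hskew, e1, e1, Matrix.neg_mulVec, dotProduct_neg]
            · exact alt_of_skew hskew hdiag
          exact even_of_symp hsy
        · rw [← hτq, map_inv₀, hζF, inv_neg, add_neg_cancel]
        · exact rational_of_entries h hent'
        · intro u hu
          rw [expand h]
          have h7 : ∀ i, τ (u i) = u i := fun i => (hfix _).1 (hu i)
          simp only [h7]
          have h8 : ∀ S : F, S = -S → S = 0 := by
            intro S hS
            have h3 : (2 : F) * S = 0 := by linear_combination hS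
            exact (mul_eq_zero.1 h3).resolve_left h2
          apply h8
          conv_lhs => rw [Finset.sum_comm]
          rw [← Finset.sum_neg_distrib]
          apply Finset.sum_congr rfl
          intro i _
          rw [← Finset.sum_neg_distrib]
          apply Finset.sum_congr rfl
          intro j _
          show u j * X j i * u i = -(u i * X i j * u j)
          rw [hskewX i j]
          ring
  · -- r odd
    set N := Nat.card F₁ with hN
    have hN1 : 1 < N := Finite.one_lt_card
    obtain ⟨s, hs⟩ := hrodd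
    set lam := ζ * (τ ζ)⁻¹ with hlam
    have hlam0 : lam ≠ 0 := mul_ne_zero hζ0 (inv_ne_zero hτζ0)
    have hτζ : τ ζ = lam⁻¹ * ζ := by
      rw [hlam, mul_inv, inv_inv]
      field_simp
    have hτlam : τ lam = lam⁻¹ := by
      rw [hlam, map_mul, map_inv₀, h.inv, mul_inv, inv_inv, mul_comm]
    -- the norm
    set E := ∑ i ∈ Finset.range r, N ^ i with hE
    have hEN : E * N + 1 = E + N ^ r := by
      have h1 : E * N + 1 = ∑ i ∈ Finset.range (r + 1), N ^ i := by
        rw [Finset.sum_range_succ', pow_zero, hE, Finset.sum_mul]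
        simp only [pow_succ]
      rw [h1, Finset.sum_range_succ]
    set ν := ζ ^ E with hν
    have hν0 : ν ≠ 0 := pow_ne_zero _ hζ0
    have hνF : ν ∈ F₁ := by
      rw [subfield_mem_iff, ← hN, hν, ← pow_mul]
      have h1 : ζ ^ (E * N + 1) = ζ ^ E * ζ := by
        rw [hEN, pow_add, ← hcard, FiniteField.pow_card]
      rw [pow_succ] at h1
      exact mul_right_cancel₀ hζ0 h1
    have hlamE : lam ^ E = lam ^ r := by
      have h1 : ∀ i, lam ^ (N ^ i) = lam := by
        intro i
        induction i with
        | zero => rw [pow_zero, pow_one]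
        | succ i ih =>
          rw [pow_succ, pow_mul, ih]
          exact (subfield_mem_iff F₁ lam).1 hlamF
      rw [hE, ← Finset.prod_pow_eq_pow_sum]
      rw [Finset.prod_congr rfl (fun i _ => h1 i), Finset.prod_const, Finset.card_range]
    have hτν : τ ν = (lam ^ r)⁻¹ * ν := by
      rw [hν, map_pow, hτζ, mul_pow, inv_pow, hlamE]
    -- μ = lam^s / ν satisfies τ μ = lam μ
    set μ := lam ^ s * ν⁻¹ with hμ
    have hμ0 : μ ≠ 0 := mul_ne_zero (pow_ne_zero _ hlam0) (inv_ne_zero hν0)
    have hμF : μ ∈ F₁ := F₁.mul_mem (F₁.pow_mem hlamF s) (F₁.inv_mem hνF)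
    have hτμ : τ μ = lam * μ := by
      rw [hμ, map_mul, map_pow, hτlam, map_inv₀, hτν, hs, inv_pow]
      field_simp
      ring
    have hζμ : τ (ζ * μ) = ζ * μ := by
      rw [map_mul, hτζ, hτμ]
      field_simp
    have hζμ0 : ζ * μ ≠ 0 := mul_ne_zero hζ0 hμ0
    obtain ⟨d, hd0, hd⟩ := norm_surj hτ h.inv (inv_ne_zero hζμ0) (by rw [map_inv₀, hζμ])
    refine ⟨F₁, sc n F (Units.mk0 d hd0) * B, fun g hg => subfield_scale _ (hmem g hg), Or.inl ⟨r, hr, ⟨s, hs⟩, hcard, ?_⟩⟩
    apply rational_of_entries h
    intro i j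
    have h1 : ∀ v, ((sc n F (Units.mk0 d hd0) * B : GL (Fin n) F) : Matrix (Fin n) (Fin n) F) *ᵥ v =
        d • ((B : Matrix (Fin n) (Fin n) F) *ᵥ v) := by
      intro v
      rw [Units.val_mul, sc_coe, Matrix.smul_mul, one_mul, Matrix.smul_mulVec]
      rfl
    rw [h1, h1, h.smul_left, h.smul_right, one_mul]
    show d * (τ d * X i j) ∈ F₁
    have h2 : d * (τ d * X i j) = μ⁻¹ * (ζ⁻¹ * X i j) := by
      rw [← mul_assoc, hd, mul_inv, ← mul_assoc, mul_comm μ⁻¹]
    rw [h2]
    exact F₁.mul_mem (F₁.inv_mem hμF) (hent' i j)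

end Cfsg.Agent.H29.Fm
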