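import Mathlib
import Cfsg.Agent.H29_Fm11
import Cfsg.Agent.H16_HermM
import Cfsg.Agent.H16_Desc

set_option autoImplicit false

/-! a unitary form together with a bilinear form gives a real structure -/

namespace Cfsg.Agent.H29.Fm

open Matrix Module Cfsg.Geo Cfsg.Agent.H29.Clifford Cfsg.Agent.H29.Asc Cfsg.Agent.H29.AscF Cfsg.Agent.H29.Trv
  Cfsg.Agent.H29.AscT
open scoped Kronecker

variable {F : Type*} [Field F] {n k m : ℕ}
variable {τ : F ≃+* F} {ε : F} {f : (Fin n → F) → (Fin n → F) → F}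

/-- the fixed field -/
def FixF (τ : F ≃+* F) : Subfield F where
  carrier := {x | τ x = x}
  mul_mem' := fun {a b} ha hb => by
    show τ (a * b) = a * b
    rw [map_mul, show τ a = a from ha, show τ b = b from hb]
  one_mem' := map_one τ
  add_mem' := fun {a b} ha hb => by
    show τ (a + b) = a + b
    rw [map_add, show τ a = a from ha, show τ b = b from hb]
  zero_mem' := map_zero τ
  neg_mem' := fun {a} ha => by
    show τ (-a) = -a
    rw [map_neg, show τ a = a from ha]
  inv_mem' := fun a ha => by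
    show τ a⁻¹ = a⁻¹
    rw [map_inv₀, show τ a = a from ha]

theorem mem_FixF {τ : F ≃+* F} {x : F} : x ∈ FixF τ ↔ τ x = x := Iff.rfl

theorem FixF_ne_top (hτ : τ ≠ RingEquiv.refl F) : FixF τ ≠ ⊤ := by
  intro h
  apply hτ
  ext x
  have : x ∈ FixF τ := by rw [h]; trivial
  exact this

/-- sesquilinear forms as matrices -/
theorem exists_mat (h : SFm τ ε f) : ∃ H : Matrix (Fin n) (Fin n) F, H.det ≠ 0 ∧
    ∀ u v, f u v = sf (τ : F →+* F) H u v := by
  have h1 := exists_matrix (τ : F →+* F) f h.add_left h.smul_left h.add_right (fun c v x => h.smul_right c v x)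
  refine ⟨_, ?_, h1⟩
  apply det_ne_zero_of_nondeg (σ := τ)
  intro v hv
  obtain ⟨x, hx⟩ := h.nd v hv
  exact ⟨x, by rw [← h1]; exact hx⟩

theorem bilinear_real [Fintype F] (hn : 0 < n) (h : SFm τ ε f) (hτ : τ ≠ RingEquiv.refl F)
    {P : Subgroup (GL (Fin n) F)} (henv : env P = ⊤) (hfix : Fx f P) {N : Matrix (Fin n) (Fin n) F} (hN : N.det ≠ 0)
    (hNP : ∀ x ∈ P, ((x : GL (Fin n) F) : Matrix (Fin n) (Fin n) F)ᵀ * N * (x : Matrix (Fin n) (Fin n) F) = N) :
    RealisableOver (FixF τ) (matrixSet P) := by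
  classical
  haveI : Nonempty (Fin n) := ⟨⟨0, hn⟩⟩
  obtain ⟨H, hH, hfH⟩ := exists_mat h
  have hHP : ∀ x ∈ P, ((x : GL (Fin n) F) : Matrix (Fin n) (Fin n) F)ᵀ * H * (x : Matrix (Fin n) (Fin n) F).map τ = H := by
    intro x hx
    apply (fixes_iff (τ : F →+* F) H _).1
    intro u v
    rw [← hfH, ← hfH]
    exact hfix x hx u v
  have hmapmul : ∀ (X Y : Matrix (Fin n) (Fin n) F), (X * Y).map τ = X.map τ * Y.map τ := by
    intro X Y
    ext p q
    show τ (∑ r, X p r * Y r q) = ∑ r, τ (X p r) * τ (Y r q)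
    rw [map_sum]
    apply Finset.sum_congr rfl
    intro r _
    rw [map_mul]
  have hmapmap : ∀ (X : Matrix (Fin n) (Fin n) F), (X.map τ).map τ = X := by
    intro X; ext i j; exact h.inv _
  have hHu : IsUnit H.det := isUnit_iff_ne_zero.2 hH
  have hNu : IsUnit N.det := isUnit_iff_ne_zero.2 hN
  set M := H⁻¹ * N with hM
  set M' := N⁻¹ * H with hM'
  have hMM' : M * M' = 1 := by
    rw [hM, hM', mul_assoc, ← mul_assoc N, Matrix.mul_nonsing_inv _ hNu, one_mul, Matrix.nonsing_inv_mul _ hHu]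
  have hM'M : M' * M = 1 := mul_eq_one_comm.1 hMM'
  have hx : ∀ x ∈ P, ((x : GL (Fin n) F) : Matrix (Fin n) (Fin n) F).map τ * M = M * (x : Matrix (Fin n) (Fin n) F) := by
    intro x hxP
    set X := ((x : GL (Fin n) F) : Matrix (Fin n) (Fin n) F) with hX
    have hXu : IsUnit Xᵀ.det := by
      rw [Matrix.det_transpose]
      exact (Matrix.isUnit_iff_isUnit_det _).1 x.isUnit
    -- Xᵀ (H X^τ M) = H M = N = Xᵀ N X
    have h1 : Xᵀ * (H * X.map τ * M) = Xᵀ * (N * X) := by
      calc Xᵀ * (H * X.map τ * M) = (Xᵀ * H * X.map τ) * M := by simp only [mul_assoc]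
        _ = N := by rw [hHP x hxP, hM, ← mul_assoc, Matrix.mul_nonsing_inv _ hHu, one_mul]
        _ = Xᵀ * N * X := (hNP x hxP).symm
        _ = Xᵀ * (N * X) := by rw [mul_assoc]
    have h2 : H * X.map τ * M = N * X := by
      have := congrArg (fun Z => (Xᵀ)⁻¹ * Z) h1
      simp only [← mul_assoc] at this
      rw [Matrix.nonsing_inv_mul _ hXu, one_mul, one_mul] at this
      rw [this]
    have h3 := congrArg (fun Z => H⁻¹ * Z) h2
    simp only [← mul_assoc] at h3
    rw [Matrix.nonsing_inv_mul _ hHu, one_mul, ← hM] at h3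
    exact h3
  clear_value M M'
  -- τ(M) M is scalar
  have hcomm : ∀ x ∈ P, (M.map τ * M) * ((x : GL (Fin n) F) : Matrix (Fin n) (Fin n) F) =
      ((x : GL (Fin n) F) : Matrix (Fin n) (Fin n) F) * (M.map τ * M) := by
    intro x hxP
    have h1 := hx x hxP
    have h2 : (((x : GL (Fin n) F) : Matrix (Fin n) (Fin n) F).map τ * M).map τ =
      (M * ((x : GL (Fin n) F) : Matrix (Fin n) (Fin n) F)).map τ := by rw [h1]
    rw [hmapmul, hmapmul, hmapmap] at h2
    rw [mul_assoc, ← h1, ← mul_assoc, ← h2, mul_assoc]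
  obtain ⟨c, hc⟩ : ∃ c : F, M.map τ * M = c • 1 := by
    have hab := (absIrr_of_env_top henv).2 (M.map τ * M) (by
      rintro _ ⟨x, hx, rfl⟩
      exact hcomm x hx)
    exact hab
  have hMdet : M.det ≠ 0 := by
    intro h0
    have := congrArg Matrix.det hMM'
    rw [Matrix.det_mul, h0, zero_mul, Matrix.det_one] at this
    exact zero_ne_one this
  have hMτdet : (M.map τ).det ≠ 0 := by
    have : (M.map τ).det = τ M.det := (RingHom.map_det (τ : F →+* F) _).symm
    rw [this]
    exact (map_ne_zero τ).2 hMdet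
  have hc0 : c ≠ 0 := by
    intro h0
    have := congrArg Matrix.det hc
    rw [h0, zero_smul, Matrix.det_zero, Matrix.det_mul] at this
    exact mul_ne_zero hMτdet hMdet this
  have hcτ : τ c = c := by
    have h1 : M * M.map τ = τ c • 1 := by
      have : (M.map τ * M).map τ = (c • (1 : Matrix (Fin n) (Fin n) F)).map τ := by rw [hc]
      rw [hmapmul, hmapmap] at this
      rw [this]
      ext i j
      show τ (c * (1 : Matrix (Fin n) (Fin n) F) i j) = τ c * (1 : Matrix (Fin n) (Fin n) F) i j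
      rw [map_mul]
      congr 1
      by_cases hij : i = j
      · subst hij; rw [Matrix.one_apply_eq, map_one]
      · rw [Matrix.one_apply_ne hij, map_zero]
    have h2 : M * (M.map τ * M) * M' = M * M.map τ := by
      rw [mul_assoc, mul_assoc, hMM', mul_one]
    rw [hc, h1, Matrix.mul_smul, mul_one, Matrix.smul_mul, hMM'] at h2
    have h3 := congrFun (congrFun h2 ⟨0, hn⟩) ⟨0, hn⟩
    simpa using h3.symm
  obtain ⟨d, hd0, hd⟩ := norm_surj hτ h.inv (inv_ne_zero hc0) (by rw [map_inv₀, hcτ])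
  -- the semilinear map
  let M2 : Matrix (Fin n) (Fin n) F := d⁻¹ • M'
  let T : (Fin n → F) → (Fin n → F) := fun v => M2 *ᵥ (fun i => τ (v i))
  have hMd : (d • M).map τ * (d • M) = 1 := by
    have e1 : (d • M).map τ = τ d • M.map τ := by
      ext i j
      show τ (d * M i j) = τ d * τ (M i j)
      rw [map_mul]
    rw [e1, Matrix.smul_mul, Matrix.mul_smul, hc, smul_smul, smul_smul, mul_comm (τ d), hd, inv_mul_cancel₀ hc0, one_smul]
  have hM2 : M2 * (d • M) = 1 := by
    show (d⁻¹ • M') * (d • M) = 1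
    rw [Matrix.smul_mul, Matrix.mul_smul, hM'M, smul_smul, inv_mul_cancel₀ hd0, one_smul]
  have hM2' : M2 * M2.map τ = 1 := by
    have e1 : M2.map τ * (d • M).map τ = 1 := by
      rw [← hmapmul, hM2]
      ext i j
      by_cases hij : i = j
      · subst hij
        rw [Matrix.map_apply, Matrix.one_apply_eq, map_one]
      · rw [Matrix.map_apply, Matrix.one_apply_ne hij, map_zero]
    -- M2.map τ = inverse of (d•M).map τ = (d • M)
    have e2 : M2.map τ = d • M := by
      calc M2.map τ = M2.map τ * ((d • M).map τ * (d • M)) := by rw [hMd, mul_one]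
        _ = d • M := by rw [← mul_assoc, e1, one_mul]
    rw [e2, hM2]
  have hord : orderOf τ = 2 := by
    apply orderOf_eq_prime (p := 2)
    · ext x
      rw [pow_two]
      exact h.inv x
    · intro h1
      exact hτ h1
  obtain ⟨g, hg⟩ := Cfsg.Agent.H16.Desc.exists_fixed_gl (ι := Fin n) τ hord (by norm_num) (τ := T) (by
      intro u v
      show M2 *ᵥ _ = M2 *ᵥ _ + M2 *ᵥ _
      rw [← Matrix.mulVec_add]
      congr 1
      funext i
      exact map_add τ _ _) (by
      intro a v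
      show M2 *ᵥ _ = τ a • (M2 *ᵥ _)
      rw [← Matrix.mulVec_smul]
      congr 1
      funext i
      exact map_mul τ _ _) (by
      intro v
      show T (T v) = v
      show M2 *ᵥ (fun i => τ ((M2 *ᵥ (fun i => τ (v i))) i)) = v
      have e1 : (fun i => τ ((M2 *ᵥ (fun i => τ (v i))) i)) = M2.map τ *ᵥ v := by
        funext i
        show τ (∑ j, M2 i j * τ (v j)) = ∑ j, τ (M2 i j) * v j
        rw [map_sum]
        apply Finset.sum_congr rfl
        intro j _
        rw [map_mul, h.inv]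
      rw [e1, Matrix.mulVec_mulVec, hM2', Matrix.one_mulVec])
  have hTx : ∀ x ∈ P, ∀ v, T ((x : Matrix (Fin n) (Fin n) F) *ᵥ v) = (x : Matrix (Fin n) (Fin n) F) *ᵥ (T v) := by
    intro x hxP v
    show M2 *ᵥ (fun i => τ (((x : Matrix (Fin n) (Fin n) F) *ᵥ v) i)) = (x : Matrix (Fin n) (Fin n) F) *ᵥ (M2 *ᵥ _)
    have e1 : (fun i => τ (((x : Matrix (Fin n) (Fin n) F) *ᵥ v) i)) = (x : Matrix (Fin n) (Fin n) F).map τ *ᵥ (fun i => τ (v i)) := by
      funext i
      show τ (∑ j, (x : Matrix (Fin n) (Fin n) F) i j * v j) = ∑ j, τ ((x : Matrix (Fin n) (Fin n) F) i j) * τ (v j)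
      rw [map_sum]
      apply Finset.sum_congr rfl
      intro j _
      rw [map_mul]
    rw [e1, Matrix.mulVec_mulVec, Matrix.mulVec_mulVec]
    congr 1
    have h1 := hx x hxP
    show (d⁻¹ • M') * (x : Matrix (Fin n) (Fin n) F).map τ = (x : Matrix (Fin n) (Fin n) F) * (d⁻¹ • M')
    rw [Matrix.smul_mul, Matrix.mul_smul]
    congr 1
    calc M' * (x : Matrix (Fin n) (Fin n) F).map τ = M' * ((x : Matrix (Fin n) (Fin n) F).map τ * M) * M' := by
          rw [mul_assoc, mul_assoc, hMM', mul_one]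
      _ = M' * (M * (x : Matrix (Fin n) (Fin n) F)) * M' := by rw [h1]
      _ = _ := by rw [← mul_assoc M', hM'M, one_mul]
  have hgg : ((g⁻¹ : GL (Fin n) F) : Matrix (Fin n) (Fin n) F) * (g : Matrix (Fin n) (Fin n) F) = 1 := by
    rw [← Units.val_mul, inv_mul_cancel, Units.val_one]
  have hgg' : (g : Matrix (Fin n) (Fin n) F) * ((g⁻¹ : GL (Fin n) F) : Matrix (Fin n) (Fin n) F) = 1 := by
    rw [← Units.val_mul, mul_inv_cancel, Units.val_one]
  -- T in the basis g
  have hTg : ∀ u : Fin n → F, T ((g : Matrix (Fin n) (Fin n) F) *ᵥ u) = (g : Matrix (Fin n) (Fin n) F) *ᵥ (fun i => τ (u i)) := by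
    intro u
    have e1 : T ((g : Matrix (Fin n) (Fin n) F) *ᵥ u) = (M2 * (g : Matrix (Fin n) (Fin n) F).map τ) *ᵥ (fun i => τ (u i)) := by
      show M2 *ᵥ _ = _
      rw [← Matrix.mulVec_mulVec]
      congr 1
      funext i
      show τ (∑ j, (g : Matrix (Fin n) (Fin n) F) i j * u j) = ∑ j, τ ((g : Matrix (Fin n) (Fin n) F) i j) * τ (u j)
      rw [map_sum]
      apply Finset.sum_congr rfl
      intro j _
      rw [map_mul]
    have e2 : M2 * (g : Matrix (Fin n) (Fin n) F).map τ = (g : Matrix (Fin n) (Fin n) F) := by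
      ext i j
      have h3 := congrFun (hg j) i
      have h4 : (fun k => (g : Matrix (Fin n) (Fin n) F) k j) = (g : Matrix (Fin n) (Fin n) F) *ᵥ (Pi.single j 1) := by
        rw [Matrix.mulVec_single_one]; rfl
      have h5 : T ((g : Matrix (Fin n) (Fin n) F) *ᵥ (Pi.single j 1)) i = ((g : Matrix (Fin n) (Fin n) F) *ᵥ (Pi.single j 1)) i := h3
      rw [← h4] at h5
      exact h5
    rw [e1, e2]
  refine ⟨g⁻¹, ?_⟩
  rintro _ ⟨x, hxP, rfl⟩ i j
  rw [inv_inv, mem_FixF]
  set Y := ((g⁻¹ : GL (Fin n) F) : Matrix (Fin n) (Fin n) F) * (x : Matrix (Fin n) (Fin n) F) * (g : Matrix (Fin n) (Fin n) F) with hY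
  have hgY : (g : Matrix (Fin n) (Fin n) F) * Y = (x : Matrix (Fin n) (Fin n) F) * (g : Matrix (Fin n) (Fin n) F) := by
    rw [hY, ← mul_assoc, ← mul_assoc, hgg', one_mul]
  have h1 : (g : Matrix (Fin n) (Fin n) F) *ᵥ (fun i => τ (Y i j)) = (g : Matrix (Fin n) (Fin n) F) *ᵥ (fun i => Y i j) := by
    have h2 := hTg (fun i => Y i j)
    rw [← h2]
    have h3 : (fun i => Y i j) = Y *ᵥ (Pi.single j 1) := by
      rw [Matrix.mulVec_single_one]; rfl
    rw [h3, Matrix.mulVec_mulVec, hgY, ← Matrix.mulVec_mulVec, hTx x hxP]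
    congr 1
    exact hg j
  have h4 := congrArg (fun w => ((g⁻¹ : GL (Fin n) F) : Matrix (Fin n) (Fin n) F) *ᵥ w) h1
  simp only [Matrix.mulVec_mulVec, hgg, Matrix.one_mulVec] at h4
  exact congrFun h4 i

end Cfsg.Agent.H29.Fm
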