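import Mathlib
import Cfsg.Agent.H29_Fm12

set_option autoImplicit false

/-! symplectic type groups preserving a unitary form -/

namespace Cfsg.Agent.H29.Fm

open Matrix Module Cfsg.Geo Cfsg.Agent.H29.Clifford Cfsg.Agent.H29.Asc Cfsg.Agent.H29.AscF Cfsg.Agent.H29.Trv
  Cfsg.Agent.H29.AscT
open scoped Kronecker

variable {F : Type*} [Field F] {n k m r : ℕ}
variable {τ : F ≃+* F} {ε : F} {f : (Fin n → F) → (Fin n → F) → F}
variable {G E R : Subgroup (GL (Fin n) F)}

theorem even_exp [Fintype F] {p e q : ℕ} (hp : p.Prime) (hcard : Fintype.card F = p ^ e)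
    (hq : Fintype.card F = q ^ 2) : ∃ a, q = p ^ a ∧ e = 2 * a := by
  have h1 : q ∣ p ^ e := by
    rw [← hcard, hq]; exact dvd_pow_self q (by norm_num)
  obtain ⟨a, -, ha⟩ := (Nat.dvd_prime_pow hp).1 h1
  refine ⟨a, ha, ?_⟩
  rw [hcard, ha, ← pow_mul] at hq
  have := Nat.pow_right_injective hp.two_le hq
  omega

/-- multipliers of elements of finite order -/
theorem mult_pow (h : SFm τ ε f) (hn : 0 < n) {x : GL (Fin n) F} {c : F}
    (hc : ∀ u v, f ((x : Matrix (Fin n) (Fin n) F) *ᵥ u) ((x : Matrix (Fin n) (Fin n) F) *ᵥ v) = c * f u v)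
    {s : ℕ} (hs : x ^ s = 1) : c ^ s = 1 := by
  have h1 : ∀ (s : ℕ) u v, f (((x ^ s : GL (Fin n) F) : Matrix (Fin n) (Fin n) F) *ᵥ u)
      (((x ^ s : GL (Fin n) F) : Matrix (Fin n) (Fin n) F) *ᵥ v) = c ^ s * f u v := by
    intro s
    induction s with
    | zero => intro u v; simp
    | succ s ih =>
      intro u v
      rw [pow_succ' x s, Units.val_mul, ← Matrix.mulVec_mulVec, ← Matrix.mulVec_mulVec, hc, ih, pow_succ]
      ring
  have hv : (Pi.single ⟨0, hn⟩ (1 : F) : Fin n → F) ≠ 0 := by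
    intro h0
    have := congrFun h0 ⟨0, hn⟩
    rw [Pi.single_eq_same] at this
    exact one_ne_zero this
  obtain ⟨u, hu⟩ := h.nd _ hv
  have h2 := h1 s u (Pi.single ⟨0, hn⟩ (1 : F))
  rw [hs, Units.val_one, Matrix.one_mulVec, Matrix.one_mulVec] at h2
  have h3 : (c ^ s - 1) * f u (Pi.single ⟨0, hn⟩ (1 : F)) = 0 := by linear_combination -h2
  exact sub_eq_zero.1 ((mul_eq_zero.1 h3).resolve_right hu)

theorem symp_type_unitary [Fintype F] (hn : 3 ≤ n) (hsr : SR r G E R) (h : SFm τ ε f) {q : ℕ}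
    (hq : Fintype.card F = q ^ 2) (hE : E ≤ similarityGroup f) :
    (∃ F₀ : Subfield F, F₀ ≠ ⊤ ∧ RealisableOver F₀ (matrixSet R) ∧
      ∀ s ∈ R, ∃ c ∈ F₀, c ≠ 0 ∧ ∀ u v, f ((s : Matrix (Fin n) (Fin n) F) *ᵥ u)
        ((s : Matrix (Fin n) (Fin n) F) *ᵥ v) = c * f u v) ∨
    (∃ (p e k : ℕ), IsSymplecticTypeGroup r R ∧
      ActsAbsolutelyIrreducibly (matrixSet R) ∧ R ≤ similarityGroup f ∧ r ≠ p ∧
      IsMinimalFieldFor (Nat.card (Subgroup.center R)) p e F ∧
      ((Odd r ∧ Nat.card (Subgroup.center R) = r ∧ 1 ≤ k ∧ Nat.card R = r ^ (1 + 2 * k)) ∨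
       (r = 2 ∧ e = 2 ∧ Nat.card (Subgroup.center R) = 4 ∧ Nat.card R = 2 ^ (2 + 2 * k))) ∧ n = r ^ k) := by
  classical
  have hn0 : 0 < n := by omega
  obtain ⟨p, hch⟩ := CharP.exists F
  haveI := hch
  have hp : p.Prime := CharP.char_is_prime F p
  haveI : Fact p.Prime := ⟨hp⟩
  obtain ⟨e', -, hcard⟩ := FiniteField.card F p
  set e : ℕ := (e' : ℕ) with he
  have he0 : 0 < e := e'.pos
  have hrd := hsr.dvd (by omega)
  have hq1 : 1 < Fintype.card F := Fintype.one_lt_card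
  have hrp : r ≠ p := by
    rintro rfl
    rw [hcard] at hrd hq1
    have h1 : r ∣ r ^ e := dvd_pow_self r he0.ne'
    have h2 : r ∣ 1 := by
      have h3 := Nat.dvd_sub h1 hrd
      have h4 : r ^ e - (r ^ e - 1) = 1 := by omega
      rwa [h4] at h3
    exact hp.one_lt.ne' (Nat.dvd_one.1 h2)
  obtain ⟨a, ha, hea⟩ := even_exp hp hcard hq
  have hs : ex r ∣ Fintype.card F - 1 := by
    by_cases hr2 : r = 2
    · subst hr2
      rw [ex_two]
      have hqodd : q % 2 = 1 := by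
        rcases Nat.mod_two_eq_zero_or_one q with h2 | h2
        · exfalso
          have h3 : 2 ∣ q ^ 2 := (Nat.dvd_of_mod_eq_zero h2).trans (dvd_pow_self q (by norm_num))
          rw [← hq] at h3
          omega
        · exact h2
      rw [hq]
      have h4 : q % 4 = 1 ∨ q % 4 = 3 := by omega
      have h5 : q ^ 2 % 4 = 1 := by
        rcases h4 with h4 | h4 <;> · rw [Nat.pow_mod, h4]
      omega
    · rw [ex_odd hsr.hr hr2]; exact hrd
  obtain ⟨ζ, hζ⟩ := exists_prim (F := F) hs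
  obtain ⟨B, hB⟩ := monomial_basis hn0 (ex_pos hsr.hr) hζ R hsr.envR hsr.comm' (fun x hx => ((hsr.mem x).1 hx).2)
  by_cases hmin : ∀ d : ℕ, 0 < d → d < e → ¬ ex r ∣ p ^ d - 1
  · right
    obtain ⟨m, hm⟩ := hsr.dim hn0
    have hm1 : 1 ≤ m := by
      rcases Nat.eq_zero_or_pos m with h0 | h0
      · subst h0; simp at hm; omega
      · exact h0
    have hc := hsr.center_card hn0 hs
    have hR := hsr.card hn0 hs
    refine ⟨p, e, m, ⟨hsr.hr, hsr.pgroup, fun A hA hab => hsr.char_cyclic (by omega) A hA hab,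
      hsr.exponent hn0 hs⟩, absIrr_of_env_top hsr.envR, hsr.le.trans hE, hrp, ?_, ?_, hm⟩
    · rw [hc]
      exact ⟨hp, hch, hcard, by rw [← hcard]; exact hs, hmin⟩
    · by_cases hr2 : r = 2
      · right
        subst hr2
        rw [ex_two] at hs hc hR hmin
        refine ⟨rfl, ?_, hc, ?_⟩
        · by_contra hne
          have he4 : 2 < e := by omega
          apply hmin 2 (by norm_num) he4
          have hpodd : p % 2 = 1 := by
            rcases hp.eq_two_or_odd with h3 | h3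
            · exact absurd h3.symm hrp
            · exact h3
          have h4 : p % 4 = 1 ∨ p % 4 = 3 := by omega
          have h5 : p ^ 2 % 4 = 1 := by
            rcases h4 with h4 | h4 <;> · rw [Nat.pow_mod, h4]
          omega
        · rw [hR, hm]
          ring
      · left
        have hro : Odd r := hsr.hr.eq_two_or_odd'.resolve_left hr2
        rw [ex_odd hsr.hr hr2] at hc hR
        refine ⟨hro, hc, hm1, ?_⟩
        rw [hR, hm]
        ring
  · left
    push Not at hmin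
    obtain ⟨d, hd0, hde, hd⟩ := hmin
    obtain ⟨F₀, hF₀, hm⟩ := frob_proper (F := F) hcard hd0 hde
    have hroot : ∀ x : F, x ^ ex r = 1 → x ∈ F₀ := by
      intro x hx
      rw [hm]
      obtain ⟨k, hk⟩ := hd
      have hpos : 0 < p ^ d := pow_pos hp.pos d
      have h1 : x ^ (p ^ d - 1) = 1 := by rw [hk, pow_mul, hx, one_pow]
      calc x ^ p ^ d = x ^ (p ^ d - 1) * x := by rw [← pow_succ, Nat.sub_add_cancel hpos]
        _ = x := by rw [h1, one_mul]
    refine ⟨F₀, hF₀, real_of_monomial R hB F₀ hroot, ?_⟩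
    intro s hsR
    obtain ⟨c, hc⟩ := hE (hsr.le hsR)
    exact ⟨c, hroot _ (mult_pow h hn0 hc ((hsr.mem s).1 hsR).2), c.ne_zero, hc⟩

end Cfsg.Agent.H29.Fm
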