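import Mathlib
import Cfsg.Agent.H29_Fm13

set_option autoImplicit false

/-! unitary groups: equal tensor factors -/

namespace Cfsg.Agent.H29.Fm

open Matrix Module Cfsg.Geo Cfsg.Agent.H29.Clifford Cfsg.Agent.H29.Asc Cfsg.Agent.H29.AscF Cfsg.Agent.H29.Trv
  Cfsg.Agent.H29.AscT
open scoped Kronecker

variable {F : Type*} [Field F] {n k m r : ℕ}
variable {τ : F ≃+* F} {ε : F} {f : (Fin n → F) → (Fin n → F) → F}
variable {G E R : Subgroup (GL (Fin n) F)}

theorem mmul {κ μ ν : Type*} [Fintype μ] (τ : F ≃+* F) (X : Matrix κ μ F) (Y : Matrix μ ν F) :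
    (X * Y).map τ = X.map τ * Y.map τ := by
  ext p q
  show τ (∑ r, X p r * Y r q) = ∑ r, τ (X p r) * τ (Y r q)
  rw [map_sum]
  apply Finset.sum_congr rfl
  intro r _
  rw [map_mul]

theorem unitary_pow {q w : ℕ} (hq : ∀ x, τ x = x ^ q) (hinv : ∀ a, τ (τ a) = a)
    {A : Matrix (Fin w) (Fin w) F} (hA : HM τ 1 A) (hdet : A.det ≠ 0) : IsUnitaryFormPow q (formOfGram τ A) := by
  have h := SFm_gram (Or.inl rfl) hinv hA hdet
  refine ⟨h.add_left, h.smul_left, ?_, h.isNondeg⟩
  intro v w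
  rw [h.herm, one_mul, hq]

theorem ts_wreath {e : Fin n ≃ Fin m × Fin m} {P : GL (Fin n) F} {A C : Matrix (Fin m) (Fin m) F} {δ₁ δ₂ : F}
    (h : TS τ ε f e P A C δ₁ δ₂) (x y : (Fin 2 → Fin m) → F) :
    f ((P : Matrix (Fin n) (Fin n) F) *ᵥ (x ∘ (e.trans (finTwoArrowEquiv (Fin m)).symm)))
      ((P : Matrix (Fin n) (Fin n) F) *ᵥ (y ∘ (e.trans (finTwoArrowEquiv (Fin m)).symm))) =
      1 * formOfGram τ (K ![A, C]) x y := by
  have e1 : ∀ z : (Fin 2 → Fin m) → F, z ∘ (e.trans (finTwoArrowEquiv (Fin m)).symm) =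
      (z ∘ (finTwoArrowEquiv (Fin m)).symm) ∘ e := fun z => rfl
  rw [e1, e1, h.form, one_mul]
  show ∑ a, ∑ b, x ((finTwoArrowEquiv (Fin m)).symm a) * (A ⊗ₖ C) a b * τ (y ((finTwoArrowEquiv (Fin m)).symm b)) =
    ∑ a, ∑ b, x a * K ![A, C] a b * τ (y b)
  rw [← Equiv.sum_comp (finTwoArrowEquiv (Fin m)).symm (fun a => ∑ b, x a * K ![A, C] a b * τ (y b))]
  apply Finset.sum_congr rfl
  intro a _
  rw [← Equiv.sum_comp (finTwoArrowEquiv (Fin m)).symm (fun b => x ((finTwoArrowEquiv (Fin m)).symm a) *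
    K ![A, C] ((finTwoArrowEquiv (Fin m)).symm a) b * τ (y b))]
  apply Finset.sum_congr rfl
  intro b _
  congr 2
  rw [K_apply, Fin.prod_univ_two]
  rfl

theorem orthonormalise [Finite F] (hτ : τ ≠ RingEquiv.refl F) (hinv : ∀ a, τ (τ a) = a)
    {B : Fin k → Matrix (Fin m) (Fin m) F} (hB : ∀ i, HM τ 1 (B i)) (hdet : ∀ i, (B i).det ≠ 0) :
    ∃ A : Fin k → GL (Fin m) F, ∀ i, ((A i : Matrix (Fin m) (Fin m) F))ᵀ * B i *
      (A i : Matrix (Fin m) (Fin m) F).map τ = 1 := by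
  have key : ∀ i, ∃ a : GL (Fin m) F, ((a : Matrix (Fin m) (Fin m) F))ᵀ * B i *
      (a : Matrix (Fin m) (Fin m) F).map τ = 1 := by
    intro i
    obtain ⟨h, hh⟩ := Cfsg.Agent.H16.Desc.exists_herm_factor τ hτ hinv
      (Matrix.GeneralLinearGroup.mkOfDetNeZero (B i) (hdet i)) (by
        ext a b
        show τ (B i b a) = B i a b
        rw [hB i a b, one_mul])
    have hBh : B i = (h : Matrix (Fin m) (Fin m) F) * ((h : Matrix (Fin m) (Fin m) F).map τ)ᵀ := hh
    have hu : ((h⁻¹ : GL (Fin m) F) : Matrix (Fin m) (Fin m) F) * (h : Matrix (Fin m) (Fin m) F) = 1 := by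
      rw [← Units.val_mul, inv_mul_cancel, Units.val_one]
    have hdt : (((h⁻¹ : GL (Fin m) F) : Matrix (Fin m) (Fin m) F)ᵀ).det ≠ 0 := by
      rw [Matrix.det_transpose]
      exact ((Matrix.isUnit_iff_isUnit_det _).1 (h⁻¹).isUnit).ne_zero
    refine ⟨Matrix.GeneralLinearGroup.mkOfDetNeZero _ hdt, ?_⟩
    show ((((h⁻¹ : GL (Fin m) F) : Matrix (Fin m) (Fin m) F)ᵀ))ᵀ * B i *
      (((h⁻¹ : GL (Fin m) F) : Matrix (Fin m) (Fin m) F)ᵀ).map τ = 1
    rw [Matrix.transpose_transpose, hBh, ← mul_assoc, hu, one_mul]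
    have e2 : (((h⁻¹ : GL (Fin m) F) : Matrix (Fin m) (Fin m) F)ᵀ).map τ =
        ((((h⁻¹ : GL (Fin m) F) : Matrix (Fin m) (Fin m) F)).map τ)ᵀ := by
      ext i j; rfl
    rw [e2, ← Matrix.transpose_mul]
    have e3 : (((h⁻¹ : GL (Fin m) F) : Matrix (Fin m) (Fin m) F)).map τ * (h : Matrix (Fin m) (Fin m) F).map τ = 1 := by
      have : (((h⁻¹ : GL (Fin m) F) : Matrix (Fin m) (Fin m) F) * (h : Matrix (Fin m) (Fin m) F)).map τ = 1 := by
        rw [hu]
        ext i j
        by_cases hij : i = j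
        · subst hij; rw [Matrix.map_apply, Matrix.one_apply_eq, map_one]
        · rw [Matrix.map_apply, Matrix.one_apply_ne hij, map_zero]
      rw [← this, mmul]
    rw [e3, Matrix.transpose_one]
  choose A hA using key
  exact ⟨A, hA⟩

theorem card_FixF [Fintype F] {q : ℕ} (hq : Fintype.card F = q ^ 2) (hτq : ∀ x, τ x = x ^ q) :
    Nat.card (FixF τ) = q := by
  classical
  have hq0 : 0 < q := by
    rcases Nat.eq_zero_or_pos q with h | h
    · subst h
      have := Fintype.card_pos (α := F)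
      rw [hq] at this
      simp at this
    · exact h
  have hq1 : 1 < q := by
    rcases Nat.lt_or_ge 1 q with h | h
    · exact h
    · exfalso
      have h1 : q = 1 := by omega
      have h2 := Fintype.one_lt_card (α := F)
      rw [hq, h1] at h2
      omega
  have hdvd : q - 1 ∣ Fintype.card F - 1 := by
    rw [hq]
    have : q ^ 2 - 1 = (q + 1) * (q - 1) := by
      rw [← Nat.sq_sub_sq, one_pow]
    rw [this]
    exact dvd_mul_left _ _
  have h1 := card_roots (F := F) (s := q - 1) (by omega) hdvd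
  haveI : Fintype (FixF τ) := Fintype.ofFinite _
  have h2 : Nat.card (FixF τ)ˣ = Nat.card {c : Fˣ // c ^ (q - 1) = 1} := by
    let φ : (FixF τ)ˣ → {c : Fˣ // c ^ (q - 1) = 1} := fun u =>
      ⟨Units.map ((FixF τ).subtype : (FixF τ) →* F) u, by
        have h3 : τ ((u : FixF τ) : F) = ((u : FixF τ) : F) := (u : FixF τ).2
        have h5 : ((u : FixF τ) : F) ≠ 0 := by
          intro h0
          exact u.ne_zero (Subtype.ext h0)
        apply Units.ext
        rw [Units.val_pow_eq_pow_val, Units.val_one]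
        show ((u : FixF τ) : F) ^ (q - 1) = 1
        apply mul_right_cancel₀ h5
        rw [← pow_succ, Nat.sub_add_cancel hq0, one_mul, ← hτq, h3]⟩
    apply Nat.card_congr
    apply Equiv.ofBijective φ
    constructor
    · intro a b hab
      apply Units.ext
      apply Subtype.ext
      have := congrArg (fun c : {c : Fˣ // c ^ (q - 1) = 1} => ((c : Fˣ) : F)) hab
      exact this
    · rintro ⟨c, hc⟩
      have h6 : τ (c : F) = c := by
        rw [hτq]
        have h7 : (c : F) ^ (q - 1) = 1 := by rw [← Units.val_pow_eq_pow_val, hc, Units.val_one]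
        calc (c : F) ^ q = (c : F) ^ (q - 1) * c := by rw [← pow_succ, Nat.sub_add_cancel hq0]
          _ = c := by rw [h7, one_mul]
      have hne : (⟨(c : F), h6⟩ : FixF τ) ≠ 0 := by
        intro h0
        exact c.ne_zero (congrArg Subtype.val h0)
      refine ⟨Units.mk0 ⟨(c : F), h6⟩ hne, ?_⟩
      apply Subtype.ext
      apply Units.ext
      rfl
  rw [h1, card_units] at h2
  rw [Nat.card_eq_fintype_card]
  have := Fintype.one_lt_card (α := FixF τ)
  omega

end Cfsg.Agent.H29.Fm
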