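import Mathlib
import Cfsg.Agent.H29_Fm14

set_option autoImplicit false

/-! unitary groups: two tensor factors of dimension two -/

namespace Cfsg.Agent.H29.Fm

open Matrix Module Cfsg.Geo Cfsg.Agent.H29.Clifford Cfsg.Agent.H29.Asc Cfsg.Agent.H29.AscF Cfsg.Agent.H29.Trv
  Cfsg.Agent.H29.AscT
open scoped Kronecker

variable {F : Type*} [Field F] {n k m r : ℕ}
variable {τ : F ≃+* F} {ε : F} {f : (Fin n → F) → (Fin n → F) → F}
variable {G E R : Subgroup (GL (Fin n) F)}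

/-- real structures of semilinear involutions -/
theorem struct_of_T (hn : 0 < n) (hτ : τ ≠ RingEquiv.refl F) (hinv : ∀ a, τ (τ a) = a) {T : (Fin n → F) → (Fin n → F)}
    (hadd : ∀ u v, T (u + v) = T u + T v) (hsmul : ∀ (a : F) v, T (a • v) = τ a • T v) (hT : ∀ v, T (T v) = v) :
    ∃ h : GL (Fin n) F, (∀ u : Fin n → F, T ((h : Matrix (Fin n) (Fin n) F) *ᵥ u) =
      (h : Matrix (Fin n) (Fin n) F) *ᵥ (fun i => τ (u i))) ∧
      ∀ g : GL (Fin n) F, (∃ c : F, ∀ v, T ((g : Matrix (Fin n) (Fin n) F) *ᵥ v) =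
        c • ((g : Matrix (Fin n) (Fin n) F) *ᵥ (T v))) → g ∈ subfieldSubgroup (FixF τ) h := by
  classical
  haveI : Nonempty (Fin n) := ⟨⟨0, hn⟩⟩
  have hord : orderOf τ = 2 := by
    apply orderOf_eq_prime (p := 2)
    · ext x
      rw [pow_two]
      exact hinv x
    · intro h1
      exact hτ h1
  obtain ⟨g, hg⟩ := Cfsg.Agent.H16.Desc.exists_fixed_gl (ι := Fin n) τ hord (by norm_num) (τ := T) hadd hsmul hT
  have hT0 : T 0 = 0 := by
    have := hsmul 0 0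
    rwa [zero_smul, map_zero, zero_smul] at this
  have hTg : ∀ u : Fin n → F, T ((g : Matrix (Fin n) (Fin n) F) *ᵥ u) = (g : Matrix (Fin n) (Fin n) F) *ᵥ (fun i => τ (u i)) := by
    intro u
    have h3 : ∀ (u : Fin n → F), (g : Matrix (Fin n) (Fin n) F) *ᵥ u =
        ∑ i, u i • ((g : Matrix (Fin n) (Fin n) F) *ᵥ Pi.single i 1) := by
      intro u
      conv_lhs => rw [pi_eq_sum_univ' u]
      have h4 : ∀ (s : Finset (Fin n)) (v : Fin n → (Fin n → F)),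
        (g : Matrix (Fin n) (Fin n) F) *ᵥ (∑ i ∈ s, v i) = ∑ i ∈ s, (g : Matrix (Fin n) (Fin n) F) *ᵥ (v i) :=
        fun s v => map_sum (Matrix.mulVecLin (g : Matrix (Fin n) (Fin n) F)) v s
      rw [h4]
      simp only [Matrix.mulVec_smul]
    have hsum : ∀ (s : Finset (Fin n)) (v : Fin n → (Fin n → F)), T (∑ i ∈ s, v i) = ∑ i ∈ s, T (v i) := by
      intro s v
      induction s using Finset.induction_on with
      | empty => simpa using hT0
      | insert a s ha ih => rw [Finset.sum_insert ha, Finset.sum_insert ha, hadd, ih]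
    rw [h3 u, h3 (fun i => τ (u i)), hsum]
    apply Finset.sum_congr rfl
    intro i _
    rw [hsmul]
    congr 1
    exact hg i
  refine ⟨g, hTg, ?_⟩
  rintro x ⟨c, hc⟩
  rw [mem_subfieldSubgroup_iff]
  set Y : GL (Fin n) F := g⁻¹ * x * g with hY
  have hgY : (g : Matrix (Fin n) (Fin n) F) * (Y : Matrix (Fin n) (Fin n) F) = (x : Matrix (Fin n) (Fin n) F) * (g : Matrix (Fin n) (Fin n) F) := by
    rw [← Units.val_mul, ← Units.val_mul, hY]
    congr 1
    group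
  have hgg : ((g⁻¹ : GL (Fin n) F) : Matrix (Fin n) (Fin n) F) * (g : Matrix (Fin n) (Fin n) F) = 1 := by
    rw [← Units.val_mul, inv_mul_cancel, Units.val_one]
  have hYc : ∀ i j, τ ((Y : Matrix (Fin n) (Fin n) F) i j) = c * (Y : Matrix (Fin n) (Fin n) F) i j := by
    intro i j
    have h1 := hTg ((Y : Matrix (Fin n) (Fin n) F) *ᵥ (Pi.single j 1))
    have hgj : T ((g : Matrix (Fin n) (Fin n) F) *ᵥ (Pi.single j (1 : F) : Fin n → F)) =
      (g : Matrix (Fin n) (Fin n) F) *ᵥ (Pi.single j (1 : F) : Fin n → F) := hg j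
    rw [Matrix.mulVec_mulVec, hgY, ← Matrix.mulVec_mulVec, hc, hgj] at h1
    have h2 : (x : Matrix (Fin n) (Fin n) F) *ᵥ ((g : Matrix (Fin n) (Fin n) F) *ᵥ (Pi.single j (1 : F) : Fin n → F)) =
        (g : Matrix (Fin n) (Fin n) F) *ᵥ ((Y : Matrix (Fin n) (Fin n) F) *ᵥ (Pi.single j (1 : F) : Fin n → F)) := by
      rw [Matrix.mulVec_mulVec, Matrix.mulVec_mulVec, hgY]
    have h1' : c • ((x : Matrix (Fin n) (Fin n) F) *ᵥ ((g : Matrix (Fin n) (Fin n) F) *ᵥ (Pi.single j (1 : F) : Fin n → F))) =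
        (g : Matrix (Fin n) (Fin n) F) *ᵥ (fun i => τ (((Y : Matrix (Fin n) (Fin n) F) *ᵥ (Pi.single j (1 : F) : Fin n → F)) i)) := h1
    rw [h2, ← Matrix.mulVec_smul] at h1'
    have h3 := congrArg (fun w => ((g⁻¹ : GL (Fin n) F) : Matrix (Fin n) (Fin n) F) *ᵥ w) h1'
    simp only [Matrix.mulVec_mulVec, hgg, Matrix.one_mulVec] at h3
    have h4 := congrFun h3 i
    rw [Matrix.mulVec_single_one] at h4
    exact h4.symm
  obtain ⟨i₀, j₀, h00⟩ : ∃ i j, (Y : Matrix (Fin n) (Fin n) F) i j ≠ 0 := by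
    by_contra hcon
    push Not at hcon
    have h0 : (Y : Matrix (Fin n) (Fin n) F) = 0 := by ext i j; exact hcon i j
    have h1 : (Y : Matrix (Fin n) (Fin n) F).det ≠ 0 := ((Matrix.isUnit_iff_isUnit_det _).1 Y.isUnit).ne_zero
    rw [h0, Matrix.det_zero] at h1
    exact h1 rfl
  apply mem_range_sup (FixF τ) Y ((Y : Matrix (Fin n) (Fin n) F) i₀ j₀)⁻¹ (inv_ne_zero h00)
  intro i j
  rw [mem_FixF, map_mul, map_inv₀, hYc, hYc]
  have hc0 : c ≠ 0 := by
    intro h0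
    have := hYc i₀ j₀
    rw [h0, zero_mul] at this
    exact h00 ((map_eq_zero τ).1 this)
  field_simp

theorem o4_subfield [Fintype F] (hn : 0 < n) (h : SFm τ 1 f) (hτ : τ ≠ RingEquiv.refl F)
    {e : Fin n ≃ (Fin 2 → Fin 2)} {Q : GL (Fin n) F} {c : F}
    (H : ∀ x y : (Fin 2 → Fin 2) → F, f ((Q : Matrix (Fin n) (Fin n) F) *ᵥ (x ∘ e))
      ((Q : Matrix (Fin n) (Fin n) F) *ᵥ (y ∘ e)) = c * formOfGram τ (1 : Matrix (Fin 2 → Fin 2) (Fin 2 → Fin 2) F) x y)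
    (hG : Fx f G) (hGQ : G ≤ tensorWreathSubgroup 2 2 e Q) :
    ∃ P : GL (Fin n) F, G ≤ subfieldSubgroup (FixF τ) P ∧ IsFormRationalStructure f (FixF τ) 1 P ∧
      ((2 : F) = 0 → ∀ u : Fin n → F, (∀ i, u i ∈ FixF τ) →
        f ((P : Matrix (Fin n) (Fin n) F) *ᵥ u) ((P : Matrix (Fin n) (Fin n) F) *ᵥ u) = 0) := by
  classical
  have hQQ : (Q : Matrix (Fin n) (Fin n) F) * ((Q⁻¹ : GL (Fin n) F) : Matrix (Fin n) (Fin n) F) = 1 := by
    rw [← Units.val_mul, mul_inv_cancel, Units.val_one]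
  have hQQ' : ((Q⁻¹ : GL (Fin n) F) : Matrix (Fin n) (Fin n) F) * (Q : Matrix (Fin n) (Fin n) F) = 1 := by
    rw [← Units.val_mul, inv_mul_cancel, Units.val_one]
  set Q' := ((Q⁻¹ : GL (Fin n) F) : Matrix (Fin n) (Fin n) F) with hQ'
  have Hn : ∀ u v : Fin n → F, f ((Q : Matrix (Fin n) (Fin n) F) *ᵥ u) ((Q : Matrix (Fin n) (Fin n) F) *ᵥ v) =
      c * (u ⬝ᵥ (fun i => τ (v i))) := by
    intro u v
    have h1 := H (u ∘ e.symm) (v ∘ e.symm)
    have e1 : ∀ u : Fin n → F, (u ∘ e.symm) ∘ e = u := by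
      intro u; funext i; exact congrArg u (e.symm_apply_apply i)
    rw [e1, e1, formOfGram_eq, Matrix.one_mulVec] at h1
    rw [h1]
    congr 1
    exact Equiv.sum_comp e.symm (fun i => u i * τ (v i))
  set K2 : Matrix (Fin n) (Fin n) F := (KJ 2 F).submatrix e e with hK2
  have hKK : K2 * K2 = 1 := by
    rw [hK2, Matrix.submatrix_mul_equiv]
    have h1 : KJ 2 F * KJ 2 F = 1 := by
      show K (fun _ => J2 F) * K (fun _ => J2 F) = 1
      rw [K_mul]
      have h2 : ((fun _ => J2 F : Fin 2 → Matrix (Fin 2) (Fin 2) F) * (fun _ => J2 F)) = fun i => (-1 : F) • (1 : Fin 2 → Matrix (Fin 2) (Fin 2) F) i := by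
        funext i
        exact J2_sq
      rw [h2, K_smul (fun _ => (-1 : F)), K_one, Fin.prod_univ_two]
      norm_num
    rw [h1]
    ext i j
    by_cases hij : i = j
    · subst hij; rw [Matrix.submatrix_apply, Matrix.one_apply_eq, Matrix.one_apply_eq]
    · rw [Matrix.submatrix_apply, Matrix.one_apply_ne hij, Matrix.one_apply_ne (fun h => hij (e.injective h))]
  have hKT : K2ᵀ = K2 := by
    rw [hK2, Matrix.transpose_submatrix, KJ_transpose]
    norm_num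
  have hKτ : K2.map τ = K2 := by
    ext i j
    show τ (∏ a, J2 F (e i a) (e j a)) = ∏ a, J2 F (e i a) (e j a)
    rw [map_prod]
    apply Finset.prod_congr rfl
    intro a _
    have : ∀ x y : Fin 2, τ (J2 F x y) = J2 F x y := by
      intro x y
      fin_cases x <;> fin_cases y <;> simp [J2]
    exact this _ _
  have hK0 : ∀ i, K2 i i = 0 := by
    intro i
    show (∏ a, J2 F (e i a) (e i a)) = 0
    apply Finset.prod_eq_zero (Finset.mem_univ 0)
    have : ∀ x : Fin 2, J2 F x x = 0 := by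
      intro x
      fin_cases x <;> simp [J2]
    exact this _
  clear_value K2
  let S : (Fin n → F) → (Fin n → F) → F := fun u v => (Q' *ᵥ u) ⬝ᵥ (K2 *ᵥ (Q' *ᵥ v))
  let T : (Fin n → F) → (Fin n → F) := fun v => (Q : Matrix (Fin n) (Fin n) F) *ᵥ (K2 *ᵥ (fun i => τ ((Q' *ᵥ v) i)))
  have hτmul : ∀ (M : Matrix (Fin n) (Fin n) F) (v : Fin n → F), (fun i => τ ((M *ᵥ v) i)) = M.map τ *ᵥ (fun i => τ (v i)) := by
    intro M v
    funext i
    show τ (∑ j, M i j * v j) = ∑ j, τ (M i j) * τ (v j)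
    rw [map_sum]
    apply Finset.sum_congr rfl
    intro j _
    rw [map_mul]
  have hττ : ∀ v : Fin n → F, (fun i => τ ((fun i => τ (v i)) i)) = v := by
    intro v; funext i; exact h.inv _
  have hadd : ∀ u v, T (u + v) = T u + T v := by
    intro u v
    show (Q : Matrix (Fin n) (Fin n) F) *ᵥ (K2 *ᵥ _) = (Q : Matrix (Fin n) (Fin n) F) *ᵥ (K2 *ᵥ _) + (Q : Matrix (Fin n) (Fin n) F) *ᵥ (K2 *ᵥ _)
    rw [← Matrix.mulVec_add, ← Matrix.mulVec_add, Matrix.mulVec_add Q']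
    congr 2
    funext i
    exact map_add τ _ _
  have hsmul : ∀ (a : F) v, T (a • v) = τ a • T v := by
    intro a v
    show (Q : Matrix (Fin n) (Fin n) F) *ᵥ (K2 *ᵥ _) = τ a • ((Q : Matrix (Fin n) (Fin n) F) *ᵥ (K2 *ᵥ _))
    rw [← Matrix.mulVec_smul, ← Matrix.mulVec_smul, Matrix.mulVec_smul Q']
    congr 2
    funext i
    exact map_mul τ _ _
  have hfT : ∀ u v, f u (T v) = c * S u v := by
    intro u v
    have h1 : u = (Q : Matrix (Fin n) (Fin n) F) *ᵥ (Q' *ᵥ u) := by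
      rw [Matrix.mulVec_mulVec, hQQ, Matrix.one_mulVec]
    conv_lhs => rw [h1]
    show f _ ((Q : Matrix (Fin n) (Fin n) F) *ᵥ _) = _
    rw [Hn, hτmul, hKτ, hττ]
  have hTT : ∀ v, T (T v) = v := by
    intro v
    show (Q : Matrix (Fin n) (Fin n) F) *ᵥ (K2 *ᵥ (fun i => τ ((Q' *ᵥ ((Q : Matrix (Fin n) (Fin n) F) *ᵥ (K2 *ᵥ (fun i => τ ((Q' *ᵥ v) i))))) i))) = v
    rw [Matrix.mulVec_mulVec _ Q', hQQ', Matrix.one_mulVec, hτmul, hKτ, hττ, Matrix.mulVec_mulVec _ K2, hKK,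
      Matrix.one_mulVec, Matrix.mulVec_mulVec, hQQ, Matrix.one_mulVec]
  have hSsymm : ∀ u v, S u v = S v u := by
    intro u v
    show (Q' *ᵥ u) ⬝ᵥ (K2 *ᵥ (Q' *ᵥ v)) = (Q' *ᵥ v) ⬝ᵥ (K2 *ᵥ (Q' *ᵥ u))
    rw [Matrix.dotProduct_mulVec, dotProduct_comm, ← Matrix.mulVec_transpose, hKT]
  obtain ⟨P, hP1, hP2⟩ := struct_of_T hn hτ h.inv hadd hsmul hTT
  have hfixed : ∀ u : Fin n → F, (∀ i, u i ∈ FixF τ) → T ((P : Matrix (Fin n) (Fin n) F) *ᵥ u) = (P : Matrix (Fin n) (Fin n) F) *ᵥ u := by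
    intro u hu
    rw [hP1]
    congr 1
    funext i
    exact hu i
  have hc0 : c ≠ 0 := by
    intro h0
    obtain ⟨x, hx⟩ := h.nd (Pi.single ⟨0, hn⟩ 1) (by
      intro h0
      have := congrFun h0 ⟨0, hn⟩
      rw [Pi.single_eq_same] at this
      exact one_ne_zero this)
    apply hx
    have h1 := hTT (Pi.single ⟨0, hn⟩ 1)
    rw [← h1, hfT, h0, zero_mul]
  refine ⟨P, ?_, ?_, ?_⟩
  · intro g hg
    apply hP2
    obtain ⟨lam, hlam⟩ := wreath2_le e Q (hGQ hg)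
    refine ⟨τ (lam : F), ?_⟩
    intro v
    apply h.ext_right
    intro u
    -- f(u, T(g v)) with u = g u'
    set u' := ((g⁻¹ : GL (Fin n) F) : Matrix (Fin n) (Fin n) F) *ᵥ u with hu'
    have hu : u = (g : Matrix (Fin n) (Fin n) F) *ᵥ u' := by
      rw [hu', Matrix.mulVec_mulVec, ← Units.val_mul, mul_inv_cancel, Units.val_one, Matrix.one_mulVec]
    have hS : ∀ a b, S ((g : Matrix (Fin n) (Fin n) F) *ᵥ a) ((g : Matrix (Fin n) (Fin n) F) *ᵥ b) = lam * S a b := by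
      intro a b
      have h5 := hlam a b
      have h6 : ∀ a b, sf (RingHom.id F) (Q'ᵀ * K2 * Q') a b = S a b := by
        intro a b
        show a ⬝ᵥ ((Q'ᵀ * K2 * Q') *ᵥ b) = (Q' *ᵥ a) ⬝ᵥ (K2 *ᵥ (Q' *ᵥ b))
        rw [← Matrix.mulVec_mulVec, ← Matrix.mulVec_mulVec, Matrix.dotProduct_mulVec a, Matrix.vecMul_transpose]
      rw [← h6, ← h6]
      rw [← hK2] at h5
      exact h5
    rw [hu, hfT, hS, h.smul_right, h.inv, hG g hg, hfT]
    ring
  · intro u v hu hv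
    rw [one_mul, mem_FixF]
    have h1 : f ((P : Matrix (Fin n) (Fin n) F) *ᵥ u) ((P : Matrix (Fin n) (Fin n) F) *ᵥ v) =
        f ((P : Matrix (Fin n) (Fin n) F) *ᵥ v) ((P : Matrix (Fin n) (Fin n) F) *ᵥ u) := by
      conv_lhs => rw [← hfixed v hv, hfT, hSsymm]
      conv_rhs => rw [← hfixed u hu, hfT]
    have h2 := h.herm ((P : Matrix (Fin n) (Fin n) F) *ᵥ u) ((P : Matrix (Fin n) (Fin n) F) *ᵥ v)
    rw [one_mul] at h2
    rw [h1] at h2 ⊢
    exact h2.symm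
  · intro h2 u hu
    have hS0 : ∀ a, S a a = 0 := by
      intro a
      have hsk : K2ᵀ = -K2 := by
        rw [hKT]
        ext i j
        show K2 i j = - K2 i j
        linear_combination (K2 i j) * h2
      exact alt_of_skew hsk hK0 (Q' *ᵥ a)
    have h3 := hfT ((P : Matrix (Fin n) (Fin n) F) *ᵥ u) ((P : Matrix (Fin n) (Fin n) F) *ᵥ u)
    rw [hfixed u hu, hS0, mul_zero] at h3
    exact h3

end Cfsg.Agent.H29.Fm
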