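import Mathlib
import Cfsg.Agent.H29_Fm15

set_option autoImplicit false

/-! Aschbacher's theorem for unitary groups -/

namespace Cfsg.Agent.H29.Fm

open Matrix Module Cfsg.Geo Cfsg.Agent.H29.Clifford Cfsg.Agent.H29.Asc Cfsg.Agent.H29.AscF Cfsg.Agent.H29.Trv
  Cfsg.Agent.H29.AscT
open scoped Kronecker commutatorElement

variable {F : Type*} [Field F] {n k m r : ℕ}
variable {τ : F ≃+* F} {ε : F} {f : (Fin n → F) → (Fin n → F) → F}
variable {G E R : Subgroup (GL (Fin n) F)}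

/-- groups of isometries of a unitary form in no geometric class -/
structure NU [Fintype F] (q : ℕ) (τ : F ≃+* F) (f : (Fin n → F) → (Fin n → F) → F) (G : Subgroup (GL (Fin n) F)) :
    Prop where
  ng : NG τ 1 f G
  card : Fintype.card F = q ^ 2
  tau : ∀ x, τ x = x ^ q
  ne : τ ≠ RingEquiv.refl F
  ten : ∀ (n₁ n₂ : ℕ) (e : Fin n ≃ Fin n₁ × Fin n₂) (P : GL (Fin n) F) (f₁ : (Fin n₁ → F) → (Fin n₁ → F) → F)
    (f₂ : (Fin n₂ → F) → (Fin n₂ → F) → F), 2 ≤ n₁ → n₁ < n₂ → IsUnitaryFormPow q f₁ → IsUnitaryFormPow q f₂ →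
    IsTensorFormStructure τ f f₁ f₂ e P → ¬ G ≤ tensorProductSubgroup n₁ n₂ e P
  sub1 : ∀ (F₀ : Subfield F) (r : ℕ) (P : GL (Fin n) F), r.Prime → Odd r → Fintype.card F = Nat.card F₀ ^ r →
    IsFormRationalStructure f F₀ 1 P → ¬ G ≤ subfieldSubgroup F₀ P
  sub2 : ∀ (F₀ : Subfield F) (P : GL (Fin n) F), Odd q → Fintype.card F = Nat.card F₀ ^ 2 →
    IsFormRationalStructure f F₀ 1 P → ¬ G ≤ subfieldSubgroup F₀ P
  sub3 : ∀ (F₀ : Subfield F) (P : GL (Fin n) F) (ζ : F), Even n → Fintype.card F = Nat.card F₀ ^ 2 → ζ ≠ 0 →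
    ζ + ζ ^ q = 0 → IsFormRationalStructure f F₀ ζ P →
    (∀ u : Fin n → F, (∀ i, u i ∈ F₀) → f ((P : Matrix (Fin n) (Fin n) F) *ᵥ u)
      ((P : Matrix (Fin n) (Fin n) F) *ᵥ u) = 0) → ¬ G ≤ subfieldSubgroup F₀ P
  sty : ∀ (r : ℕ) (R : Subgroup (GL (Fin n) F)) (p e k : ℕ), IsSymplecticTypeGroup r R →
      ActsAbsolutelyIrreducibly (matrixSet R) → R ≤ similarityGroup f → r ≠ p →
      IsMinimalFieldFor (Nat.card (Subgroup.center R)) p e F →
      ((Odd r ∧ Nat.card (Subgroup.center R) = r ∧ 1 ≤ k ∧ Nat.card R = r ^ (1 + 2 * k)) ∨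
       (r = 2 ∧ e = 2 ∧ Nat.card (Subgroup.center R) = 4 ∧ Nat.card R = 2 ^ (2 + 2 * k))) → n = r ^ k →
      env R = ⊤ → (∀ x ∈ R, ∀ y ∈ R, ⁅x, y⁆ ∈ scalars (Fin n) F) → ¬ G ≤ subgroupNormalizer R
  wr : ∀ (k t : ℕ) (e : Fin n ≃ (Fin t → Fin k)) (P : GL (Fin n) F) (f₁ : (Fin k → F) → (Fin k → F) → F),
    3 ≤ k → 2 ≤ t → ¬ (q = 2 ∧ k = 3) → IsUnitaryFormPow q f₁ → IsTensorPowerFormStructure τ f f₁ e P →
    ¬ G ≤ tensorWreathSubgroup k t e P
  wr23 : q = 2 → ∀ (t : ℕ) (e : Fin n ≃ (Fin t → Fin 3)) (P : GL (Fin n) F) (c : F), 2 ≤ t → c ≠ 0 →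
    (∀ x y : (Fin t → Fin 3) → F, f ((P : Matrix (Fin n) (Fin n) F) *ᵥ (x ∘ e))
      ((P : Matrix (Fin n) (Fin n) F) *ᵥ (y ∘ e)) = c * formOfGram τ (K (fun _ => 1)) x y) →
    ¬ G ≤ tensorWreathSubgroup 3 t e P

/-- the subfield types are excluded -/
theorem NU.no_sub [Fintype F] (hn : 2 ≤ n) {q : ℕ} (hG : NU q τ f G) {P : Subgroup (GL (Fin n) F)}
    (henv : env P = ⊤) (hnorm : ∀ g ∈ G, ∀ x ∈ P, g * x * g⁻¹ ∈ P)
    {F₀ : Subfield F} (hF₀ : F₀ ≠ ⊤) (hreal : RealisableOver F₀ (matrixSet P))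
    (hsim : ∀ s ∈ P, ∃ c ∈ F₀, c ≠ 0 ∧ ∀ u v, f ((s : Matrix (Fin n) (Fin n) F) *ᵥ u)
      ((s : Matrix (Fin n) (Fin n) F) *ᵥ v) = c * f u v) : False := by
  obtain ⟨F₁, Q, hQ, h⟩ := subfield_unitary hn hG.ng.form hG.ne hG.card hG.tau henv hF₀ hreal hsim
  have hle : G ≤ subfieldSubgroup F₁ Q := fun g hg => hQ g (hnorm g hg)
  rcases h with ⟨r, hr, hodd, hcard, hrat⟩ | ⟨hodd, hcard, hrat⟩ | ⟨hev, hcard, ζ, h0, h1, h2, h3⟩
  · exact hG.sub1 F₁ r Q hr hodd hcard hrat hle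
  · exact hG.sub2 F₁ Q hodd hcard hrat hle
  · exact hG.sub3 F₁ Q ζ hev hcard h0 h1 h2 h3 hle

theorem tensor_struct {w t : ℕ} {e : Fin n ≃ Fin w × Fin t} {P : GL (Fin n) F}
    {A : Matrix (Fin w) (Fin w) F} {C : Matrix (Fin t) (Fin t) F} {δ₁ δ₂ : F}
    (h : TS τ ε f e P A C δ₁ δ₂) : IsTensorFormStructure τ f (formOfGram τ A) (formOfGram τ C) e P := by
  refine ⟨1, one_ne_zero, ?_⟩
  intro x y
  rw [gram_formOfGram, gram_formOfGram, one_mul]
  exact h.form x y

/-- wreath structure with orthonormal bases -/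
theorem wreath_orth [Finite F] (hτ : τ ≠ RingEquiv.refl F) (hinv : ∀ a, τ (τ a) = a) {e : Fin n ≃ (Fin k → Fin m)}
    {Q : GL (Fin n) F} {B : Fin k → Matrix (Fin m) (Fin m) F} (hB : ∀ i, HM τ 1 (B i)) (hdet : ∀ i, (B i).det ≠ 0)
    {c : F} (H : ∀ x y : (Fin k → Fin m) → F, f ((Q : Matrix (Fin n) (Fin n) F) *ᵥ (x ∘ e))
      ((Q : Matrix (Fin n) (Fin n) F) *ᵥ (y ∘ e)) = c * formOfGram τ (K B) x y) :
    ∃ Q' : GL (Fin n) F, tensorWreathSubgroup m k e Q ≤ tensorWreathSubgroup m k e Q' ∧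
      ∀ x y : (Fin k → Fin m) → F, f ((Q' : Matrix (Fin n) (Fin n) F) *ᵥ (x ∘ e))
      ((Q' : Matrix (Fin n) (Fin n) F) *ᵥ (y ∘ e)) = c * formOfGram τ (K (fun _ => 1)) x y := by
  obtain ⟨A, hA⟩ := orthonormalise hτ hinv hB hdet
  refine ⟨_, wreath_conj e Q A, ?_⟩
  intro x y
  rw [pure_change H A]
  congr 3
  funext i
  exact hA i

theorem wreath_power {e : Fin n ≃ (Fin k → Fin m)} {Q : GL (Fin n) F} {A : Matrix (Fin m) (Fin m) F} {c : F}
    (hc : c ≠ 0) (H : ∀ x y : (Fin k → Fin m) → F, f ((Q : Matrix (Fin n) (Fin n) F) *ᵥ (x ∘ e))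
      ((Q : Matrix (Fin n) (Fin n) F) *ᵥ (y ∘ e)) = c * formOfGram τ (K (fun _ => A)) x y) :
    IsTensorPowerFormStructure τ f (formOfGram τ A) e Q := by
  refine ⟨c, hc, ?_⟩
  intro x y
  rw [gram_formOfGram]
  exact H x y

/-- tensor decompositions are excluded -/
theorem NU.no_tensor [Fintype F] (hn : 0 < n) {q : ℕ} (hG : NU q τ f G) {w t : ℕ} {e : Fin n ≃ Fin w × Fin t}
    {P : GL (Fin n) F} {A : Matrix (Fin w) (Fin w) F} {C : Matrix (Fin t) (Fin t) F} {δ₁ δ₂ : F} (hw : 2 ≤ w)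
    (ht : 2 ≤ t) (h : TS τ 1 f e P A C δ₁ δ₂) (hδ : δ₁ = 1) (hle : G ≤ tensorProductSubgroup w t e P) : False := by
  have hδ₂ : δ₂ = 1 := by
    have := h.mul
    rwa [hδ, one_mul] at this
  subst hδ hδ₂
  rcases Nat.lt_trichotomy w t with hwt | hwt | hwt
  · exact hG.ten w t e P _ _ hw hwt (unitary_pow hG.tau hG.ng.form.inv h.hA h.detA)
      (unitary_pow hG.tau hG.ng.form.inv h.hC h.detC) (tensor_struct h) hle
  · subst hwt
    obtain ⟨Q, hQ, hform⟩ := wreath_orth hG.ne hG.ng.form.inv (B := ![A, C]) (c := 1)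
      (e := e.trans (finTwoArrowEquiv (Fin w)).symm) (Q := P) (f := f) (by
        intro i
        fin_cases i
        · exact h.hA
        · exact h.hC) (by
        intro i
        fin_cases i
        · exact h.detA
        · exact h.detC) (ts_wreath h)
    have hle' := (hle.trans (tensor_le_wreath e P)).trans hQ
    rcases Nat.eq_or_lt_of_le hw with hw2 | hw2
    · subst hw2
      have hform' : ∀ x y : (Fin 2 → Fin 2) → F,
          f ((Q : Matrix (Fin n) (Fin n) F) *ᵥ (x ∘ (e.trans (finTwoArrowEquiv (Fin 2)).symm)))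
          ((Q : Matrix (Fin n) (Fin n) F) *ᵥ (y ∘ (e.trans (finTwoArrowEquiv (Fin 2)).symm))) =
          1 * formOfGram τ (1 : Matrix (Fin 2 → Fin 2) (Fin 2 → Fin 2) F) x y := by
        intro x y
        have h1 : K (fun _ => (1 : Matrix (Fin 2) (Fin 2) F) : Fin 2 → Matrix (Fin 2) (Fin 2) F) = 1 := K_one
        rw [hform, h1]
      obtain ⟨P', hP1, hP2, hP3⟩ := o4_subfield hn hG.ng.form hG.ne hform' hG.ng.fix hle'
      have hcard : Fintype.card F = Nat.card (FixF τ) ^ 2 := by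
        rw [card_FixF hG.card hG.tau, hG.card]
      by_cases h2 : (2 : F) = 0
      · have hn4 : n = 4 := by
          have := Fintype.card_congr e
          rw [Fintype.card_prod, Fintype.card_fin, Fintype.card_fin] at this
          omega
        exact hG.sub3 _ P' 1 (by rw [hn4]; exact ⟨2, rfl⟩) hcard one_ne_zero
          (by rw [one_pow]; linear_combination h2) hP2 (hP3 h2) hP1
      · have hqodd : Odd q := by
          have h3 := odd_card_of_two_ne h2
          rw [hG.card, pow_two] at h3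
          exact (Nat.odd_mul.1 h3).1
        exact hG.sub2 _ P' hqodd hcard hP2 hP1
    · by_cases hq : q = 2 ∧ w = 3
      · obtain ⟨hq2, hw3⟩ := hq
        subst hw3
        exact hG.wr23 hq2 2 _ Q 1 le_rfl one_ne_zero hform hle'
      · exact hG.wr w 2 _ Q _ hw2 le_rfl hq (unitary_pow hG.tau hG.ng.form.inv (A := (1 : Matrix (Fin w) (Fin w) F))
          (by
            intro i j
            by_cases hij : i = j
            · subst hij; rw [Matrix.one_apply_eq, map_one, one_mul]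
            · rw [Matrix.one_apply_ne hij, Matrix.one_apply_ne (Ne.symm hij), map_zero, mul_zero])
          (by rw [Matrix.det_one]; exact one_ne_zero)) (wreath_power one_ne_zero hform) hle'
  · exact hG.ten t w _ P _ _ ht hwt (unitary_pow hG.tau hG.ng.form.inv h.hC h.detC)
      (unitary_pow hG.tau hG.ng.form.inv h.hA h.detA) (tensor_struct h.swap) (hle.trans (tensor_swap e P))

theorem NU.dichotomy [Fintype F] (hn : 0 < n) {q : ℕ} (hG : NU q τ f G)
    {N : Subgroup (GL (Fin n) F)} (hNG : N ≤ G) (hN : ∀ g ∈ G, ∀ x ∈ N, g * x * g⁻¹ ∈ N) :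
    N ≤ scalars (Fin n) F ∨ env N = ⊤ := by
  rcases hG.ng.dichotomy hn hNG hN with h | h | ⟨w, t, e, P, A, C, δ₁, δ₂, hw, ht, hts, hδ, hle⟩
  · exact Or.inl h
  · exact Or.inr h
  · exact (hG.no_tensor hn hw ht hts (hδ hG.ne) hle).elim

/-- a perfect group of similarities consists of isometries -/
theorem perfect_fixes {g : (Fin n → F) → (Fin n → F) → F} {P : Subgroup (GL (Fin n) F)} (hP : ⁅P, P⁆ = P)
    (h : P ≤ similarityGroup g) : ∀ x ∈ P, ∀ u v, g ((x : Matrix (Fin n) (Fin n) F) *ᵥ u)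
      ((x : Matrix (Fin n) (Fin n) F) *ᵥ v) = g u v := by
  by_cases hg : ∃ u v, g u v ≠ 0
  · obtain ⟨u₀, v₀, h0⟩ := hg
    -- the isometries in P
    let I : Subgroup (GL (Fin n) F) :=
      { carrier := {x | ∀ u v, g ((x : Matrix (Fin n) (Fin n) F) *ᵥ u) ((x : Matrix (Fin n) (Fin n) F) *ᵥ v) = g u v}
        mul_mem' := by
          intro a b ha hb u v
          rw [Units.val_mul, ← Matrix.mulVec_mulVec, ← Matrix.mulVec_mulVec, ha, hb]
        one_mem' := by intro u v; simp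
        inv_mem' := by
          intro a ha u v
          have := ha (((a⁻¹ : GL (Fin n) F) : Matrix (Fin n) (Fin n) F) *ᵥ u) (((a⁻¹ : GL (Fin n) F) : Matrix (Fin n) (Fin n) F) *ᵥ v)
          rw [Matrix.mulVec_mulVec, Matrix.mulVec_mulVec, ← Units.val_mul, mul_inv_cancel, Units.val_one,
            Matrix.one_mulVec, Matrix.one_mulVec] at this
          exact this.symm }
    have hle : P ≤ I := by
      rw [← hP, Subgroup.commutator_le]
      intro a ha b hb u v
      obtain ⟨c, hc⟩ := h ha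
      obtain ⟨d, hd⟩ := h hb
      obtain ⟨c', hc'⟩ := h (P.inv_mem ha)
      obtain ⟨d', hd'⟩ := h (P.inv_mem hb)
      have h1 : ((⁅a, b⁆ : GL (Fin n) F) : Matrix (Fin n) (Fin n) F) = (a : Matrix (Fin n) (Fin n) F) *
          (b : Matrix (Fin n) (Fin n) F) * ((a⁻¹ : GL (Fin n) F) : Matrix (Fin n) (Fin n) F) *
          ((b⁻¹ : GL (Fin n) F) : Matrix (Fin n) (Fin n) F) := by
        rw [commutatorElement_def, Units.val_mul, Units.val_mul, Units.val_mul]
      have hcc : (c : F) * c' = 1 := by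
        have h2 := hc (((a⁻¹ : GL (Fin n) F) : Matrix (Fin n) (Fin n) F) *ᵥ u₀) (((a⁻¹ : GL (Fin n) F) : Matrix (Fin n) (Fin n) F) *ᵥ v₀)
        rw [Matrix.mulVec_mulVec, Matrix.mulVec_mulVec, ← Units.val_mul, mul_inv_cancel, Units.val_one,
            Matrix.one_mulVec, Matrix.one_mulVec, hc'] at h2
        have h3 : ((c : F) * c' - 1) * g u₀ v₀ = 0 := by linear_combination -h2
        exact sub_eq_zero.1 ((mul_eq_zero.1 h3).resolve_right h0)
      have hdd : (d : F) * d' = 1 := by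
        have h2 := hd (((b⁻¹ : GL (Fin n) F) : Matrix (Fin n) (Fin n) F) *ᵥ u₀) (((b⁻¹ : GL (Fin n) F) : Matrix (Fin n) (Fin n) F) *ᵥ v₀)
        rw [Matrix.mulVec_mulVec, Matrix.mulVec_mulVec, ← Units.val_mul, mul_inv_cancel, Units.val_one,
            Matrix.one_mulVec, Matrix.one_mulVec, hd'] at h2
        have h3 : ((d : F) * d' - 1) * g u₀ v₀ = 0 := by linear_combination -h2
        exact sub_eq_zero.1 ((mul_eq_zero.1 h3).resolve_right h0)
      rw [h1]
      simp only [← Matrix.mulVec_mulVec]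
      rw [hc, hd, hc', hd']
      linear_combination (g u v * (d : F) * d') * hcc + (g u v) * hdd
    exact fun x hx => hle hx
  · push Not at hg
    intro x _ u v
    rw [hg, hg]

theorem perfect_iSup {P : Fin k → Subgroup (GL (Fin n) F)} (hP : ∀ i, ⁅P i, P i⁆ = P i) :
    ⁅(⨆ i, P i), (⨆ i, P i)⁆ = ⨆ i, P i := by
  apply le_antisymm
  · rw [Subgroup.commutator_le]
    intro a ha b hb
    rw [commutatorElement_def]
    exact Subgroup.mul_mem _ (Subgroup.mul_mem _ (Subgroup.mul_mem _ ha hb) (Subgroup.inv_mem _ ha)) (Subgroup.inv_mem _ hb)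
  · apply iSup_le
    intro i
    conv_lhs => rw [← hP i]
    exact Subgroup.commutator_mono (le_iSup P i) (le_iSup P i)

/-- the core of the residual class -/
theorem core_of_simple' {P : Subgroup (GL (Fin n) F)} (hn : 0 < n) (hPG : P ≤ G)
    (hnorm : ∀ g ∈ G, ∀ x ∈ P, g * x * g⁻¹ ∈ P) (hperf : ⁅P, P⁆ = P)
    (hs : IsSimpleGroup (P ⧸ (scalars (Fin n) F).subgroupOf P)) (hns : ¬ P ≤ scalars (Fin n) F)
    (henv : env P = ⊤)
    (hsub : ∀ F₀ : Subfield F, F₀ ≠ ⊤ → ¬ RealisableOver F₀ (matrixSet P)) : IsResidualCore G P where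
  le := hPG
  normal := hnorm
  perfect := hperf
  simple := hs
  nonabelian := by
    intro hab
    apply hns
    rw [← hperf, Subgroup.commutator_le]
    intro x hx y hy
    have h1 := hab.is_comm.comm ((QuotientGroup.mk (⟨x, hx⟩ : P)) : P ⧸ (scalars (Fin n) F).subgroupOf P)
      (QuotientGroup.mk ⟨y, hy⟩)
    have h2 : (QuotientGroup.mk (⁅(⟨x, hx⟩ : P), ⟨y, hy⟩⁆) : P ⧸ (scalars (Fin n) F).subgroupOf P) = 1 := by
      rw [commutatorElement_def, QuotientGroup.mk_mul, QuotientGroup.mk_mul, QuotientGroup.mk_mul,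
        QuotientGroup.mk_inv, QuotientGroup.mk_inv, h1]
      group
    rw [QuotientGroup.eq_one_iff] at h2
    exact h2
  centralizer_scalar := by
    intro h hh hc
    apply scalar_of_commute hn henv
    exact GT_commute scalars_le_center hperf (fun x hx => hc x hx)
  absIrred := absIrr_of_env_top henv
  no_subfield := hsub

/-- **Aschbacher's theorem** for unitary groups, main part. -/
theorem NU.residual [Fintype F] (hn : 3 ≤ n) {q : ℕ} (hG : NU q τ f G) : InUnitaryResidualClass G := by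
  classical
  have hn0 : 0 < n := by omega
  haveI : Nonempty (Fin n) := ⟨⟨0, hn0⟩⟩
  have hunit : Cfsg.Geo.IsUnitaryForm τ f :=
    ⟨hG.ne, hG.ng.form.inv, hG.ng.form.add_left, hG.ng.form.smul_left, fun v w => by
      have := hG.ng.form.herm v w
      rwa [one_mul] at this, hG.ng.form.isNondeg⟩
  have hsim1 : ∀ {N : Subgroup (GL (Fin n) F)} (F₀ : Subfield F), N ≤ G → ∀ s ∈ N, ∃ c ∈ F₀, c ≠ 0 ∧
      ∀ u v, f ((s : Matrix (Fin n) (Fin n) F) *ᵥ u) ((s : Matrix (Fin n) (Fin n) F) *ᵥ v) = c * f u v := by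
    intro N F₀ hN s hs
    refine ⟨1, F₀.one_mem, one_ne_zero, ?_⟩
    intro u v
    rw [hG.ng.fix s (hN hs), one_mul]
  obtain ⟨N, hNG, hNn, hNs, hmin, hcase⟩ := gl_main G (not_scalar_of_irr (by omega) hG.ng.irr)
  rcases hcase with ⟨hab, r, hr, hpow⟩ | ⟨k, P, hk, hPN, hPp, hPZ, hPs, hPc, hPg, hPt, hPt'⟩
  · exfalso
    have henv : env N = ⊤ := (hG.dichotomy hn0 hNG hNn).resolve_left hNs
    have hST := ST.of_minimal hr hNn hab hpow henv hmin
    obtain ⟨R, hR⟩ := hST.exists_SR hn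
    have hRn : ∀ g ∈ G, ∀ x ∈ R, g * x * g⁻¹ ∈ R := fun g hg x hx => hR.normR hg hx
    have hE : N ⊔ scalars (Fin n) F ≤ similarityGroup f := by
      apply sup_le
      · intro x hx
        exact ⟨1, fun u v => by rw [hG.ng.fix x (hNG hx), Units.val_one, one_mul]⟩
      · intro x hx
        obtain ⟨c, hc⟩ := mem_scalars.1 hx
        refine ⟨c * Units.map (τ : F →* F) c, ?_⟩
        intro u v
        rw [← hc, sc_coe, Matrix.smul_mulVec, Matrix.smul_mulVec, Matrix.one_mulVec, Matrix.one_mulVec,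
          hG.ng.form.smul_left, hG.ng.form.smul_right, Units.val_mul]
        show (c : F) * (τ (c : F) * f u v) = (c : F) * τ (c : F) * f u v
        ring
    rcases symp_type_unitary hn hR hG.ng.form hG.card hE with ⟨F₀, hF₀, h1, h2⟩ | ⟨p, e, k, h1, h2, h3, h4, h5, h6, h7⟩
    · exact hG.no_sub (by omega) hR.envR hRn hF₀ h1 h2
    · exact hG.sty r R p e k h1 h2 h3 h4 h5 h6 h7 hR.envR hR.comm' (mem_normalizer hRn)
  · have hnorm : ∀ g ∈ G, ∀ x ∈ (⨆ i, P i), g * x * g⁻¹ ∈ (⨆ i, P i) := by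
      intro g hg x hx
      obtain ⟨σ, hσ⟩ := hPg g hg
      refine Subgroup.iSup_induction P (C := fun x => g * x * g⁻¹ ∈ (⨆ i, P i)) hx ?_ ?_ ?_
      · intro i x hx
        exact Subgroup.mem_iSup_of_mem (σ i) (hσ i x hx)
      · rw [mul_one, mul_inv_cancel]; exact Subgroup.one_mem _
      · intro a b ha hb
        have : g * (a * b) * g⁻¹ = (g * a * g⁻¹) * (g * b * g⁻¹) := by group
        rw [this]; exact Subgroup.mul_mem _ ha hb
    have hPG : (⨆ i, P i) ≤ G := iSup_le (fun i => (hPN i).trans hNG)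
    have henv : env (⨆ i, P i) = ⊤ := by
      refine (hG.dichotomy hn0 hPG hnorm).resolve_left ?_
      intro h
      exact hPZ ⟨0, hk⟩ ((le_iSup P _).trans h)
    -- bilinear forms are impossible
    have hbil : ∀ M : Matrix (Fin n) (Fin n) F, M.det ≠ 0 → ¬ (∀ x ∈ (⨆ i, P i),
        ((x : GL (Fin n) F) : Matrix (Fin n) (Fin n) F)ᵀ * M * (x : Matrix (Fin n) (Fin n) F) = M) := by
      intro M hM hx
      exact hG.no_sub (by omega) henv hnorm (FixF_ne_top hG.ne)
        (bilinear_real hn0 hG.ng.form hG.ne henv (hG.ng.fix.mono hPG) hM hx) (hsim1 _ hPG)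
    have hbil' : ∀ g : (Fin n → F) → (Fin n → F) → F, IsBilinearForm g → IsNondegenerateForm g →
        ¬ (∀ x ∈ (⨆ i, P i), ∀ u v, g ((x : Matrix (Fin n) (Fin n) F) *ᵥ u)
          ((x : Matrix (Fin n) (Fin n) F) *ᵥ v) = g u v) := by
      intro g hg hnd hx
      have h1 := exists_matrix (RingHom.id F) g hg.add_left hg.smul_left hg.add_right (fun c v x => hg.smul_right c v x)
      refine hbil (Matrix.of fun i j => g (Pi.single i 1) (Pi.single j 1))
        (det_ne_zero_of_nondeg (σ := RingEquiv.refl F) ?_) ?_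
      · intro v hv
        obtain ⟨⟨x, hx⟩, -⟩ := hnd v hv
        refine ⟨x, ?_⟩
        have h2 := h1 x v
        rw [h2] at hx
        exact hx
      · intro x hxP
        have h3 := (fixes_iff (RingHom.id F) (Matrix.of fun i j => g (Pi.single i 1) (Pi.single j 1))
          (x : Matrix (Fin n) (Fin n) F)).1 (by
          intro u v
          rw [← h1, ← h1]
          exact hx x hxP u v)
        have hid : ∀ A : Matrix (Fin n) (Fin n) F, A.map (RingHom.id F) = A := fun A => by ext i j; rfl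
        rwa [hid] at h3
    by_cases hk1 : k = 1
    · subst hk1
      have hP0 : (⨆ i, P i) = P 0 := by
        apply le_antisymm
        · apply iSup_le
          intro i
          rw [Subsingleton.elim i 0]
        · exact le_iSup P 0
      rw [hP0] at henv hnorm hbil' hPG
      -- no proper subfield
      have hnsub : ∀ F₀ : Subfield F, F₀ ≠ ⊤ → ¬ RealisableOver F₀ (matrixSet (P 0)) := fun F₀ hF₀ hreal =>
        hG.no_sub (by omega) henv hnorm hF₀ hreal (hsim1 _ hPG)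
      refine ⟨P 0, core_of_simple' hn0 hPG hnorm (hPp 0) (hPs 0) (hPZ 0) henv hnsub, ?_, ?_⟩
      · rintro ⟨Q, hQ, hfix⟩
        refine hbil' _ hQ.polar_bilinear hQ.nondegenerate ?_
        intro x hx u v
        have h1 := hfix _ ⟨x, hx, rfl⟩
        unfold QuadraticMap.polar
        rw [← Matrix.mulVec_add, h1, h1, h1]
      · rintro ⟨g, hg, hfix⟩
        exact hbil' g hg.bilinear hg.nondegenerate (fun x hx => hfix _ ⟨x, hx, rfl⟩)
    · exfalso
      obtain ⟨m, e, Q, A, δ, c, hm, hle, hA, hc, hδ, hHM, hδτ, hform⟩ := tensor_power_form hn0 hG.ng.form hk P hPc henv hPZ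
        G hG.ng.fix (fun i => (hPN i).trans hNG) hPg (fun i j => by
          obtain ⟨g, h1, hg⟩ := hPt i j
          exact ⟨g, h1, hg⟩)
      have hδ1 := hδτ hG.ne
      subst hδ1
      rcases Nat.eq_or_lt_of_le hm with h | h
      · subst h
        have hperf := perfect_iSup hPp
        have hle2 : (⨆ i, P i) ≤ tensorWreathSubgroup 2 k e Q := hPG.trans hle
        rcases wreath2_class8 hk e Q with ⟨g, hg, hgs⟩ | ⟨h2, Q', hQ', hgs⟩
        · exact hbil' g hg.bilinear hg.nondegenerate (perfect_fixes hperf (hle2.trans hgs))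
        · refine hbil' _ hQ'.polar_bilinear hQ'.nondegenerate (perfect_fixes hperf (hle2.trans ?_))
          intro x hx
          obtain ⟨c, hc⟩ := hgs hx
          refine ⟨c, fun u v => ?_⟩
          unfold QuadraticMap.polar
          rw [← Matrix.mulVec_add, hc, hc, hc]
          ring
      · by_cases hq : q = 2 ∧ m = 3
        · obtain ⟨hq2, hm3⟩ := hq
          subst hm3
          obtain ⟨Q', hQ', hform'⟩ := wreath_orth hG.ne hG.ng.form.inv (fun _ => hHM) (fun _ => hA) hform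
          exact hG.wr23 hq2 k e Q' c (by omega) hc hform' (hle.trans hQ')
        · exact hG.wr m k e Q _ h (by omega) hq (unitary_pow hG.tau hG.ng.form.inv hHM hA) (wreath_power hc hform) hle

end Cfsg.Agent.H29.Fm
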