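import Mathlib
import Cfsg.Agent.H29_Trv2
import Cfsg.Agent.H29_TrvFrm
import Cfsg.Agent.H29_AscT2
import Cfsg.Agent.H29_AscE

set_option autoImplicit false

/-! the members of the geometric classes do not contain the special linear group -/

namespace Cfsg.Agent.H29.Asc

open Matrix Module Cfsg.Geo Cfsg.Agent.H29.Trv Cfsg.Agent.H29.AscT

variable {F : Type*} [Field F] {n : ℕ}

/-- a nonzero functional vanishing on two given vectors -/
theorem exists_phi2 (hn : 3 ≤ n) (u x : Fin n → F) :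
    ∃ (φ : (Fin n → F) →ₗ[F] F) (y : Fin n → F), φ u = 0 ∧ φ x = 0 ∧ φ y = 1 := by
  classical
  have h1 : Submodule.span F {u, x} ≠ ⊤ := by
    intro h
    have h2 := finrank_span_le_card (R := F) ({u, x} : Set (Fin n → F))
    rw [h, finrank_top, Module.finrank_fintype_fun_eq_card, Fintype.card_fin] at h2
    have h3 : ({u, x} : Set (Fin n → F)).toFinset.card ≤ 2 := by
      rw [Set.toFinset_insert, Set.toFinset_singleton]
      exact Finset.card_le_two
    omega
  obtain ⟨y, hy⟩ : ∃ y, y ∉ Submodule.span F {u, x} := by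
    by_contra hcon
    push Not at hcon
    exact h1 (eq_top_iff.2 (fun y _ => hcon y))
  obtain ⟨φ, h1, h2⟩ := exists_functional _ _ hy
  exact ⟨φ, y, h2 _ (Submodule.subset_span (by simp)), h2 _ (Submodule.subset_span (by simp)), h1⟩

/-- the common kernel of two functionals -/
theorem exists_ker2 (hn : 3 ≤ n) (φ ψ : (Fin n → F) →ₗ[F] F) : ∃ w, w ≠ 0 ∧ φ w = 0 ∧ ψ w = 0 := by
  let f : (Fin n → F) →ₗ[F] F × F := φ.prod ψ
  have h1 : LinearMap.ker f ≠ ⊥ := by
    intro h
    have h2 := LinearMap.finrank_le_finrank_of_injective (LinearMap.ker_eq_bot.1 h)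
    rw [Module.finrank_fintype_fun_eq_card, Fintype.card_fin, Module.finrank_prod, Module.finrank_self] at h2
    omega
  obtain ⟨w, hw, hw0⟩ := (Submodule.ne_bot_iff _).1 h1
  rw [LinearMap.mem_ker] at hw
  exact ⟨w, hw0, congrArg Prod.fst hw, congrArg Prod.snd hw⟩

/-- forms -/
theorem not_SL_le_sim (hn : 3 ≤ n) {f : (Fin n → F) → (Fin n → F) → F}
    (h2 : ∀ v x y, f v (x + y) = f v x + f v y)
    (hnd : ∀ v, v ≠ 0 → ∃ x, f x v ≠ 0) : ¬ specialLinear (Fin n) F ≤ similarityGroup f := by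
  intro hle
  haveI : Nonempty (Fin n) := ⟨⟨0, by omega⟩⟩
  obtain ⟨u, hu⟩ := exists_ne (0 : Fin n → F)
  obtain ⟨x, hx⟩ := hnd u hu
  obtain ⟨φ, y, h3, h4, h5⟩ := exists_phi2 hn u x
  obtain ⟨c, hc⟩ := hle (trv_mem_SL u φ h3)
  have h6 := hc x u
  rw [trv_apply, trv_apply, h4, h3, zero_smul, add_zero, add_zero] at h6
  have h7 : (c : F) = 1 := by
    have : ((c : F) - 1) * f x u = 0 := by linear_combination -h6
    exact sub_eq_zero.1 ((mul_eq_zero.1 this).resolve_right hx)
  have h8 := hc x y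
  rw [trv_apply, trv_apply, h4, h5, zero_smul, one_smul, add_zero, h2, h7, one_mul] at h8
  apply hx
  linear_combination h8

theorem not_SL_le_quad (hn : 3 ≤ n) {Q : (Fin n → F) → F} (hQ : IsNondegenerateQuadraticForm Q) :
    ¬ specialLinear (Fin n) F ≤ quadSimilarityGroup Q := by
  intro hle
  apply not_SL_le_sim hn (f := QuadraticMap.polar Q) hQ.polar_bilinear.add_right
    (fun v hv => (hQ.nondegenerate v hv).1)
  intro g hg
  obtain ⟨c, hc⟩ := hle hg
  refine ⟨c, fun u v => ?_⟩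
  unfold QuadraticMap.polar
  rw [← Matrix.mulVec_add, hc, hc, hc]
  ring

/-- decompositions -/
theorem not_SL_le_dec {t m : ℕ} {D : Fin t → Submodule F (Fin n → F)} (hD : IsMDecomposition m D) :
    ¬ specialLinear (Fin n) F ≤ decompositionStabilizer D := by
  intro hle
  have ht := hD.two_le
  have hne : ∀ i, ∃ v ∈ D i, v ≠ 0 := by
    intro i
    have h1 : D i ≠ ⊥ := by
      intro h
      have h2 := hD.finrank_eq i
      rw [h, finrank_bot] at h2
      have := hD.pos
      omega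
    exact (Submodule.ne_bot_iff _).1 h1
  have hdisj : ∀ i j, i ≠ j → ∀ x, x ∈ D i → x ∈ D j → x = 0 := by
    intro i j hij x hi hj
    have h1 := hD.indep.pairwiseDisjoint hij
    exact Submodule.disjoint_def.1 h1 x hi hj
  let i0 : Fin t := ⟨0, by omega⟩
  let i1 : Fin t := ⟨1, by omega⟩
  have h01 : i0 ≠ i1 := by simp [i0, i1, Fin.ext_iff]
  obtain ⟨v, hv, hv0⟩ := hne i0
  obtain ⟨u, hu, hu0⟩ := hne i1
  have huv : v ∉ Submodule.span F {u} := by
    intro h
    obtain ⟨c, rfl⟩ := Submodule.mem_span_singleton.1 h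
    exact hv0 (hdisj i0 i1 h01 _ hv ((D i1).smul_mem c hu))
  obtain ⟨φ, h1, h2⟩ := exists_functional _ _ huv
  have h3 : φ u = 0 := h2 u (Submodule.mem_span_singleton_self u)
  obtain ⟨σ, hσ⟩ := hle (trv_mem_SL u φ h3)
  have h4 : v + u ∈ D (σ i0) := by
    rw [← hσ i0]
    refine ⟨v, hv, ?_⟩
    rw [Matrix.toLin'_apply, trv_apply, h1, one_smul]
  by_cases e0 : σ i0 = i0
  · rw [e0] at h4
    have : u ∈ D i0 := by
      have := (D i0).sub_mem h4 hv
      simpa using this
    exact hu0 (hdisj i0 i1 h01 _ this hu)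
  · by_cases e1 : σ i0 = i1
    · rw [e1] at h4
      have : v ∈ D i1 := by
        have := (D i1).sub_mem h4 hu
        simpa using this
      exact hv0 (hdisj i0 i1 h01 _ hv this)
    · -- v + u is in the sup of the others
      have h5 := hD.indep (σ i0)
      have h6 : v + u ∈ ⨆ j, ⨆ (_ : j ≠ σ i0), D j := by
        apply Submodule.add_mem
        · exact Submodule.mem_iSup_of_mem i0 (Submodule.mem_iSup_of_mem (Ne.symm e0) hv)
        · exact Submodule.mem_iSup_of_mem i1 (Submodule.mem_iSup_of_mem (Ne.symm e1) hu)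
      have h7 := Submodule.disjoint_def.1 h5 _ h4 h6
      have h8 : v = -u := eq_neg_of_add_eq_zero_left h7
      apply hv0
      apply hdisj i0 i1 h01 _ hv
      rw [h8]
      exact (D i1).neg_mem hu

/-- extension fields -/
theorem not_SL_le_fld (hn : 3 ≤ n) {r : ℕ} (hr : 1 < r) {K : Subalgebra F (Matrix (Fin n) (Fin n) F)}
    (hK : IsFieldSubalgebra r K) : ¬ specialLinear (Fin n) F ≤ subalgebraNormalizer K := by
  intro hle
  haveI : Nonempty (Fin n) := ⟨⟨0, by omega⟩⟩
  -- a nonscalar element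
  obtain ⟨k, hk, hks⟩ : ∃ k ∈ K, ∀ c : F, k ≠ c • (1 : Matrix (Fin n) (Fin n) F) := by
    by_contra hcon
    push Not at hcon
    have h1 : K = ⊥ := by
      rw [eq_bot_iff]
      intro k hk
      obtain ⟨c, hc⟩ := hcon k hk
      rw [Algebra.mem_bot]
      exact ⟨c, by rw [hc, Algebra.algebraMap_eq_smul_one]⟩
    have h2 := hK.finrank_eq
    rw [h1, Subalgebra.finrank_bot] at h2
    omega
  obtain ⟨u, hu0, hu⟩ : ∃ u, u ≠ 0 ∧ k *ᵥ u ∉ Submodule.span F {u} := by
    have := exists_not_span (Matrix.toLin' k) (fun c hc => hks c (by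
      apply Matrix.toLin'.injective
      rw [hc, map_smul, Matrix.toLin'_one]))
    exact this
  obtain ⟨φ, h1, h2⟩ := exists_functional _ _ hu
  have h3 : φ u = 0 := h2 u (Submodule.mem_span_singleton_self u)
  set T := trv u φ h3 with hT
  have h4 := (hle (trv_mem_SL u φ h3) k).1 hk
  obtain ⟨w, hw0, hw1, hw2⟩ := exists_ker2 hn φ (φ ∘ₗ Matrix.toLin' k)
  have hw2' : φ (k *ᵥ w) = 0 := hw2
  have h5 : (T : Matrix (Fin n) (Fin n) F) * k * ((T⁻¹ : GL (Fin n) F) : Matrix (Fin n) (Fin n) F) - k = 0 := by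
    by_contra hne
    obtain ⟨y, -, hy⟩ := hK.inv _ (K.sub_mem h4 hk) hne
    -- apply to T w
    have hTw : (T : Matrix (Fin n) (Fin n) F) *ᵥ w = w := by
      rw [trv_apply, hw1, zero_smul, add_zero]
    have hTi : ((T⁻¹ : GL (Fin n) F) : Matrix (Fin n) (Fin n) F) *ᵥ w = w := by
      conv_lhs => rw [← hTw]
      exact inv_mulVec_self T w
    have h6 : ((T : Matrix (Fin n) (Fin n) F) * k * ((T⁻¹ : GL (Fin n) F) : Matrix (Fin n) (Fin n) F) - k) *ᵥ w = 0 := by
      rw [Matrix.sub_mulVec, ← Matrix.mulVec_mulVec, ← Matrix.mulVec_mulVec, hTi, trv_apply, hw2', zero_smul,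
        add_zero, sub_self]
    have hy' := mul_eq_one_comm.1 hy
    have h7 := congrArg (fun v => y *ᵥ v) h6
    simp only [Matrix.mulVec_mulVec, Matrix.mulVec_zero] at h7
    rw [hy', Matrix.one_mulVec] at h7
    exact hw0 h7
  have h6 : (T : Matrix (Fin n) (Fin n) F) * k = k * (T : Matrix (Fin n) (Fin n) F) := by
    have h7 := sub_eq_zero.1 h5
    have h8 := congrArg (fun X => X * (T : Matrix (Fin n) (Fin n) F)) h7
    simp only [mul_assoc] at h8
    rw [← Units.val_mul, inv_mul_cancel, Units.val_one, mul_one] at h8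
    exact h8
  have h7 := congrArg (fun X => X *ᵥ u) h6
  simp only [← Matrix.mulVec_mulVec] at h7
  rw [trv_apply, trv_apply, h1, h3, one_smul, zero_smul, add_zero] at h7
  apply hu0
  simpa using h7

/-- subfield groups -/
theorem not_SL_le_sub (hn : 2 ≤ n) {F₀ : Subfield F} (hF : F₀ ≠ ⊤) (P : GL (Fin n) F) :
    ¬ specialLinear (Fin n) F ≤ subfieldSubgroup F₀ P := by
  intro hle
  apply hF
  rw [eq_top_iff]
  intro c _
  let i0 : Fin n := ⟨0, by omega⟩
  let i1 : Fin n := ⟨1, by omega⟩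
  have h01 : i0 ≠ i1 := by simp [i0, i1, Fin.ext_iff]
  -- the transvection e0 + c e1
  have hφ : (c • (LinearMap.proj i0 : (Fin n → F) →ₗ[F] F)) (Pi.single i1 1) = 0 := by
    simp [Pi.single_apply, h01]
  set T := trv (Pi.single i1 (1 : F)) (c • (LinearMap.proj i0 : (Fin n → F) →ₗ[F] F)) hφ with hT
  have h1 : P * T * P⁻¹ ∈ specialLinear (Fin n) F := by
    have := (MonoidHom.normal_ker (Matrix.GeneralLinearGroup.det : GL (Fin n) F →* Fˣ)).conj_mem T
      (trv_mem_SL _ _ hφ) P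
    exact this
  have h2 := hle h1
  obtain ⟨x, hx, hxT⟩ := h2
  have h3 : x = T := by
    have : P * x * P⁻¹ = P * T * P⁻¹ := hxT
    exact mul_left_cancel (mul_right_cancel this)
  subst h3
  rw [SetLike.mem_coe, Subgroup.mem_sup_of_normal_right] at hx
  obtain ⟨_, ⟨y, rfl⟩, _, ⟨d, rfl⟩, hyd⟩ := hx
  -- entries
  have h4 : ∀ i j, (T : Matrix (Fin n) (Fin n) F) i j = ((y : Matrix (Fin n) (Fin n) F₀) i j : F) * d := by
    intro i j
    rw [← hyd]
    have : (Matrix.GeneralLinearGroup.map (F₀.subtype : F₀ →+* F) y *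
      (Units.map (Matrix.scalar (Fin n) : F →+* Matrix (Fin n) (Fin n) F).toMonoidHom d) : GL (Fin n) F) =
      Matrix.GeneralLinearGroup.map (F₀.subtype : F₀ →+* F) y * sc n F d := rfl
    rw [this, Units.val_mul, sc_coe, Matrix.mul_smul, mul_one, Matrix.smul_apply, smul_eq_mul, mul_comm]
    rfl
  have hTe : ∀ i j, (T : Matrix (Fin n) (Fin n) F) i j = (T : Matrix (Fin n) (Fin n) F).mulVec (Pi.single j 1) i := by
    intro i j
    rw [Matrix.mulVec_single_one]; rfl
  have h5 : (T : Matrix (Fin n) (Fin n) F) i1 i1 = 1 := by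
    rw [hTe, trv_apply]
    simp [Pi.single_apply, h01]
  have h6 : (T : Matrix (Fin n) (Fin n) F) i1 i0 = c := by
    rw [hTe, trv_apply]
    simp [Pi.single_apply, h01.symm]
  rw [h4] at h5 h6
  have h7 : (d : F) = (((y : Matrix (Fin n) (Fin n) F₀) i1 i1)⁻¹ : F₀) := by
    rw [Subfield.coe_inv]
    exact eq_inv_of_mul_eq_one_right h5
  rw [← h6, h7]
  exact F₀.mul_mem (Subtype.mem _) (Subtype.mem _)

end Cfsg.Agent.H29.Asc
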