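import Mathlib
import Cfsg.Agent.H29_Max1
import Cfsg.Agent.H29_AscR

set_option autoImplicit false

/-! the members of the geometric classes do not contain the special linear group, continued -/

namespace Cfsg.Agent.H29.Asc

open Matrix Module Cfsg.Geo Cfsg.Agent.H29.Trv Cfsg.Agent.H29.AscT

variable {F : Type*} [Field F] {n : ℕ}

theorem SL_conj {T : GL (Fin n) F} (hT : T ∈ specialLinear (Fin n) F) (P : GL (Fin n) F) :
    P * T * P⁻¹ ∈ specialLinear (Fin n) F :=
  (MonoidHom.normal_ker (Matrix.GeneralLinearGroup.det : GL (Fin n) F →* Fˣ)).conj_mem T hT P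

/-- tensor products -/
theorem not_SL_le_ten {n₁ n₂ : ℕ} (h1 : 2 ≤ n₁) (h2 : 2 ≤ n₂) (e : Fin n ≃ Fin n₁ × Fin n₂) (P : GL (Fin n) F) :
    ¬ specialLinear (Fin n) F ≤ tensorProductSubgroup n₁ n₂ e P := by
  intro hle
  let a0 : Fin n₁ := ⟨0, by omega⟩
  let a1 : Fin n₁ := ⟨1, by omega⟩
  let b0 : Fin n₂ := ⟨0, by omega⟩
  let b1 : Fin n₂ := ⟨1, by omega⟩
  have ha : a0 ≠ a1 := by simp [a0, a1, Fin.ext_iff]
  have hb : b0 ≠ b1 := by simp [b0, b1, Fin.ext_iff]
  let i0 : Fin n := e.symm (a0, b0)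
  let i1 : Fin n := e.symm (a1, b1)
  let i2 : Fin n := e.symm (a0, b1)
  have h01 : i0 ≠ i1 := fun h => ha (congrArg Prod.fst (e.symm.injective h))
  have h02 : i0 ≠ i2 := fun h => hb (congrArg Prod.snd (e.symm.injective h))
  have h12 : i1 ≠ i2 := fun h => ha (congrArg Prod.fst (e.symm.injective h)).symm
  have hφ : ((LinearMap.proj i0 : (Fin n → F) →ₗ[F] F)) (Pi.single i1 1) = 0 := by
    simp [Pi.single_apply, h01]
  set T := trv (Pi.single i1 (1 : F)) ((LinearMap.proj i0 : (Fin n → F) →ₗ[F] F)) hφ with hT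
  obtain ⟨x, ⟨k, ⟨a, b, hk⟩, hkx⟩, hxT⟩ := hle (SL_conj (trv_mem_SL _ _ hφ) P)
  have h3 : x = T := by
    have : P * x * P⁻¹ = P * T * P⁻¹ := hxT
    exact mul_left_cancel (mul_right_cancel this)
  have hTk : ∀ i j, (T : Matrix (Fin n) (Fin n) F) i j = (a : Matrix (Fin n₁) (Fin n₁) F) (e i).1 (e j).1 *
      (b : Matrix (Fin n₂) (Fin n₂) F) (e i).2 (e j).2 := by
    intro i j
    rw [← h3, ← hkx]
    show (k : Matrix (Fin n₁ × Fin n₂) (Fin n₁ × Fin n₂) F) (e i) (e j) = _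
    rw [hk]; rfl
  have hTe : ∀ i j, (T : Matrix (Fin n) (Fin n) F) i j = (T : Matrix (Fin n) (Fin n) F).mulVec (Pi.single j 1) i := by
    intro i j
    rw [Matrix.mulVec_single_one]; rfl
  have e0 := hTk i0 i0
  have e1 := hTk i1 i0
  have e2 := hTk i2 i0
  rw [hTe, trv_apply] at e0 e1 e2
  simp only [i0, i1, i2, Equiv.apply_symm_apply] at e0 e1 e2
  simp only [Pi.add_apply, Pi.smul_apply, LinearMap.proj_apply, Pi.single_eq_same, smul_eq_mul, one_mul] at e0 e1 e2
  rw [Pi.single_eq_of_ne h01] at e0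
  rw [Pi.single_eq_of_ne (Ne.symm h01)] at e1
  rw [Pi.single_eq_of_ne (Ne.symm h02), Pi.single_eq_of_ne (Ne.symm h12)] at e2
  rw [add_zero] at e0 e2
  rw [zero_add] at e1
  rcases mul_eq_zero.1 e2.symm with h | h
  · rw [h, zero_mul] at e0; exact one_ne_zero e0
  · rw [h, mul_zero] at e1; exact one_ne_zero e1

/-- normal form of the elements of the tensor wreath group -/
theorem wreath_normal_form {m k : ℕ} {X : GL (Fin k → Fin m) F} (hX : X ∈ tensorWreathStandard m k F) :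
    ∃ (σ : Equiv.Perm (Fin k)) (A : Fin k → GL (Fin m) F), X = gP m F σ * gK A := by
  have hcomm : ∀ (A : Fin k → GL (Fin m) F) (σ : Equiv.Perm (Fin k)), gK A * gP m F σ = gP m F σ * gK (A ∘ σ) := by
    intro A σ
    apply Units.ext
    show K _ * Pm m F σ = Pm m F σ * K _
    rw [Pm_K]
    congr 2
    funext i
    simp
  have hKm : ∀ A B : Fin k → GL (Fin m) F, gK A * gK B = gK (A * B) := by
    intro A B
    apply Units.ext
    show K _ * K _ = K _
    rw [K_mul]
    rfl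
  have hPm : ∀ σ τ : Equiv.Perm (Fin k), gP m F σ * gP m F τ = gP m F (σ * τ) := by
    intro σ τ
    apply Units.ext
    exact Pm_Pm σ τ
  have hK1 : (gK 1 : GL (Fin k → Fin m) F) = 1 := by
    apply Units.ext
    exact K_one
  have hP1 : (gP m F (1 : Equiv.Perm (Fin k))) = 1 := by
    apply Units.ext
    exact Pm_one
  unfold tensorWreathStandard at hX
  induction hX using Subgroup.closure_induction with
  | mem X hX =>
    rcases hX with ⟨A, hA⟩ | ⟨σ, hσ⟩
    · refine ⟨1, A, ?_⟩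
      rw [hP1, one_mul]
      exact Units.ext (Matrix.ext hA)
    · refine ⟨σ, 1, ?_⟩
      rw [hK1, mul_one]
      exact Units.ext (Matrix.ext hσ)
  | one => exact ⟨1, 1, by rw [hK1, hP1, one_mul]⟩
  | mul X Y _ _ hX hY =>
    obtain ⟨σ, A, rfl⟩ := hX
    obtain ⟨τ, B, rfl⟩ := hY
    refine ⟨σ * τ, (A ∘ τ) * B, ?_⟩
    rw [← hPm, ← hKm, mul_assoc, mul_assoc, ← mul_assoc (gK A), hcomm, mul_assoc]
  | inv X _ hX =>
    obtain ⟨σ, A, rfl⟩ := hX
    refine ⟨σ⁻¹, (A⁻¹) ∘ (σ⁻¹ : Equiv.Perm (Fin k)), ?_⟩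
    rw [← hcomm, _root_.mul_inv_rev]
    congr 1

/-- tensor powers -/
theorem not_SL_le_wr {m k : ℕ} (hm : 2 ≤ m) (hk : 2 ≤ k) (e : Fin n ≃ (Fin k → Fin m)) (P : GL (Fin n) F) :
    ¬ specialLinear (Fin n) F ≤ tensorWreathSubgroup m k e P := by
  classical
  intro hle
  let a0 : Fin m := ⟨0, by omega⟩
  let a1 : Fin m := ⟨1, by omega⟩
  have ha : a0 ≠ a1 := by simp [a0, a1, Fin.ext_iff]
  let j0 : Fin k := ⟨0, by omega⟩
  let j1 : Fin k := ⟨1, by omega⟩
  have hj : j0 ≠ j1 := by simp [j0, j1, Fin.ext_iff]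
  let x0 : Fin k → Fin m := fun _ => a0
  let x1 : Fin k → Fin m := fun _ => a1
  let x2 : Fin k → Fin m := Function.update x0 j0 a1
  have hx01 : x0 ≠ x1 := fun h => ha (congrFun h j0)
  have hx02 : x0 ≠ x2 := fun h => ha (by have := congrFun h j0; simpa [x0, x2] using this)
  have hx12 : x1 ≠ x2 := fun h => ha (by
    have := congrFun h j1
    simp only [x1, x2, Function.update_of_ne (Ne.symm hj)] at this
    exact this.symm)
  let i0 : Fin n := e.symm x0
  let i1 : Fin n := e.symm x1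
  let i2 : Fin n := e.symm x2
  have h01 : i0 ≠ i1 := fun h => hx01 (e.symm.injective h)
  have h02 : i0 ≠ i2 := fun h => hx02 (e.symm.injective h)
  have h12 : i1 ≠ i2 := fun h => hx12 (e.symm.injective h)
  have hφ : ((LinearMap.proj i0 : (Fin n → F) →ₗ[F] F)) (Pi.single i1 1) = 0 := by
    simp [Pi.single_apply, h01]
  set T := trv (Pi.single i1 (1 : F)) ((LinearMap.proj i0 : (Fin n → F) →ₗ[F] F)) hφ with hT
  obtain ⟨x, ⟨X, hX, hXx⟩, hxT⟩ := hle (SL_conj (trv_mem_SL _ _ hφ) P)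
  have h3 : x = T := by
    have : P * x * P⁻¹ = P * T * P⁻¹ := hxT
    exact mul_left_cancel (mul_right_cancel this)
  obtain ⟨σ, A, rfl⟩ := wreath_normal_form hX
  have hTk : ∀ i j, (T : Matrix (Fin n) (Fin n) F) i j =
      ∏ l, (A l : Matrix (Fin m) (Fin m) F) (e i (σ l)) (e j l) := by
    intro i j
    rw [← h3, ← hXx]
    show (Pm m F σ * K (fun i => (A i : Matrix (Fin m) (Fin m) F)) : Matrix (Fin k → Fin m) (Fin k → Fin m) F)
      (e i) (e j) = _
    rw [Pm_mul]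
    rfl
  have hTe : ∀ i j, (T : Matrix (Fin n) (Fin n) F) i j = (T : Matrix (Fin n) (Fin n) F).mulVec (Pi.single j 1) i := by
    intro i j
    rw [Matrix.mulVec_single_one]; rfl
  have e0 := hTk i0 i0
  have e1 := hTk i1 i0
  have e2 := hTk i2 i0
  rw [hTe, trv_apply] at e0 e1 e2
  simp only [i0, i1, i2, Equiv.apply_symm_apply] at e0 e1 e2
  simp only [Pi.add_apply, Pi.smul_apply, LinearMap.proj_apply, Pi.single_eq_same, smul_eq_mul, one_mul] at e0 e1 e2
  rw [Pi.single_eq_of_ne h01] at e0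
  rw [Pi.single_eq_of_ne (Ne.symm h01)] at e1
  rw [Pi.single_eq_of_ne (Ne.symm h02), Pi.single_eq_of_ne (Ne.symm h12)] at e2
  rw [add_zero] at e0 e2
  rw [zero_add] at e1
  obtain ⟨l, -, hl⟩ := Finset.prod_eq_zero_iff.1 e2.symm
  have f0 : (A l : Matrix (Fin m) (Fin m) F) a0 a0 ≠ 0 := by
    intro h
    have : ∏ l, (A l : Matrix (Fin m) (Fin m) F) (x0 (σ l)) (x0 l) = 0 := Finset.prod_eq_zero (Finset.mem_univ l) h
    rw [this] at e0
    exact one_ne_zero e0
  have f1 : (A l : Matrix (Fin m) (Fin m) F) a1 a0 ≠ 0 := by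
    intro h
    have : ∏ l, (A l : Matrix (Fin m) (Fin m) F) (x1 (σ l)) (x0 l) = 0 := Finset.prod_eq_zero (Finset.mem_univ l) h
    rw [this] at e1
    exact one_ne_zero e1
  by_cases hs : σ l = j0
  · have : x2 (σ l) = a1 := by rw [hs]; simp [x2]
    rw [this] at hl
    exact f1 hl
  · have : x2 (σ l) = a0 := by simp only [x2, Function.update_of_ne hs, x0]
    rw [this] at hl
    exact f0 hl

/-- groups of symplectic type -/
theorem not_SL_le_norm [Finite F] (hn : 3 ≤ n) {r p : ℕ} (hr : r.Prime) [hp : Fact p.Prime] [CharP F p] (hrp : r ≠ p)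
    {R : Subgroup (GL (Fin n) F)} (hR : IsPGroup r R) (habs : ActsAbsolutelyIrreducibly (matrixSet R)) :
    ¬ specialLinear (Fin n) F ≤ subgroupNormalizer R := by
  intro hle
  haveI : Nonempty (Fin n) := ⟨⟨0, by omega⟩⟩
  obtain ⟨z, hz, hzs⟩ := Set.not_subset.1 (not_scalar_of_irr (by omega) habs.1)
  obtain ⟨u, hu0, hu⟩ : ∃ u, u ≠ 0 ∧ (z : Matrix (Fin n) (Fin n) F) *ᵥ u ∉ Submodule.span F {u} := by
    have := exists_not_span (Matrix.toLin' (z : Matrix (Fin n) (Fin n) F)) (fun c hc => hzs (by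
      have h1 : (z : Matrix (Fin n) (Fin n) F) = c • 1 := by
        apply Matrix.toLin'.injective
        rw [hc, map_smul, Matrix.toLin'_one]
      have hc0 : c ≠ 0 := by
        rintro rfl
        rw [zero_smul] at h1
        have h4 := z.mul_inv
        rw [h1, zero_mul] at h4
        exact zero_ne_one h4
      exact (mem_scalars_iff z).2 ⟨Units.mk0 c hc0, h1⟩))
    exact this
  obtain ⟨φ, y, h1, h2, h3⟩ := exists_phi2 hn u ((z : Matrix (Fin n) (Fin n) F) *ᵥ u)
  set T := trv u φ h1 with hT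
  have hTi : ∀ x, ((T⁻¹ : GL (Fin n) F) : Matrix (Fin n) (Fin n) F) *ᵥ x = x - φ x • u := by
    intro x
    have : (T : Matrix (Fin n) (Fin n) F) *ᵥ (x - φ x • u) = x := by
      rw [trv_apply, map_sub, map_smul, h1, smul_zero, sub_zero, sub_add_cancel]
    conv_lhs => rw [← this]
    exact inv_mulVec_self T _
  set w := z * (T * z⁻¹ * T⁻¹) with hw
  have hwR : w ∈ R := by
    apply R.mul_mem hz
    have := hle (trv_mem_SL u φ h1)
    exact ((Subgroup.mem_normalizer_iff.1 this) z⁻¹).1 (R.inv_mem hz)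
  set ψ : (Fin n → F) → F := fun x => φ (((z⁻¹ : GL (Fin n) F) : Matrix (Fin n) (Fin n) F) *ᵥ (x - φ x • u)) with hψ
  have hwx : ∀ x, (w : Matrix (Fin n) (Fin n) F) *ᵥ x = x - φ x • u + ψ x • ((z : Matrix (Fin n) (Fin n) F) *ᵥ u) := by
    intro x
    rw [hw, Units.val_mul, Units.val_mul, Units.val_mul, ← Matrix.mulVec_mulVec, ← Matrix.mulVec_mulVec,
      ← Matrix.mulVec_mulVec, hTi, trv_apply, Matrix.mulVec_add, Matrix.mulVec_mulVec, ← Units.val_mul,
      mul_inv_cancel, Units.val_one, Matrix.one_mulVec, Matrix.mulVec_smul]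
  set N : Matrix (Fin n) (Fin n) F := (w : Matrix (Fin n) (Fin n) F) - 1 with hN
  have hNx : ∀ x, N *ᵥ x = - (φ x • u) + ψ x • ((z : Matrix (Fin n) (Fin n) F) *ᵥ u) := by
    intro x
    rw [hN, Matrix.sub_mulVec, hwx, Matrix.one_mulVec]
    abel
  have hNu : N *ᵥ u = ψ u • ((z : Matrix (Fin n) (Fin n) F) *ᵥ u) := by
    rw [hNx, h1, zero_smul, neg_zero, zero_add]
  have hNz : N *ᵥ ((z : Matrix (Fin n) (Fin n) F) *ᵥ u) = 0 := by
    have : ψ ((z : Matrix (Fin n) (Fin n) F) *ᵥ u) = 0 := by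
      rw [hψ]
      simp only
      rw [h2, zero_smul, sub_zero, inv_mulVec_self, h1]
    rw [hNx, h2, this, zero_smul, zero_smul, neg_zero, zero_add]
  have hN3 : N ^ 3 = 0 := by
    apply Matrix.toLin'.injective
    apply LinearMap.ext
    intro x
    rw [map_zero, LinearMap.zero_apply, Matrix.toLin'_apply]
    have : N ^ 3 = N * (N * N) := by rw [pow_succ, pow_two, mul_assoc]
    rw [this, ← Matrix.mulVec_mulVec, ← Matrix.mulVec_mulVec, hNx x, Matrix.mulVec_add, Matrix.mulVec_smul, hNz,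
      smul_zero, add_zero, Matrix.mulVec_neg, Matrix.mulVec_smul, hNu, Matrix.mulVec_neg, Matrix.mulVec_smul,
      Matrix.mulVec_smul, hNz, smul_zero, smul_zero, neg_zero]
  have hwp : w ^ (p ^ 2) = 1 := by
    apply Units.ext
    rw [Units.val_pow_eq_pow_val, Units.val_one]
    have h4 : (w : Matrix (Fin n) (Fin n) F) = 1 + N := by rw [hN]; abel
    have hp3 : 3 ≤ p ^ 2 := by
      have := hp.out.two_le
      nlinarith
    rw [h4, add_pow_char_pow_of_commute p 2 (Commute.one_left N), one_pow,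
      pow_eq_zero_of_le hp3 hN3, add_zero]
  obtain ⟨j, hj⟩ := hR ⟨w, hwR⟩
  have hwj : w ^ (r ^ j) = 1 := congrArg Subtype.val hj
  have hcop : Nat.Coprime (p ^ 2) (r ^ j) :=
    Nat.Coprime.pow _ _ ((Nat.coprime_primes hp.out hr).2 (Ne.symm hrp))
  have hw1 : w = 1 := by
    have h5 : orderOf w ∣ Nat.gcd (p ^ 2) (r ^ j) :=
      Nat.dvd_gcd (orderOf_dvd_of_pow_eq_one hwp) (orderOf_dvd_of_pow_eq_one hwj)
    rw [hcop] at h5
    exact orderOf_eq_one_iff.1 (Nat.dvd_one.1 h5)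
  have h6 := hNx y
  rw [hN, hw1, Units.val_one, sub_self, Matrix.zero_mulVec, h3, one_smul] at h6
  have h7 : u = ψ y • ((z : Matrix (Fin n) (Fin n) F) *ᵥ u) := by
    have := eq_neg_of_add_eq_zero_left h6.symm
    have h8 := neg_injective this
    exact h8
  apply hu
  have hψ0 : ψ y ≠ 0 := by
    intro h8
    rw [h8, zero_smul] at h7
    exact hu0 h7
  rw [Submodule.mem_span_singleton]
  refine ⟨(ψ y)⁻¹, ?_⟩
  conv_lhs => rw [h7]
  rw [smul_smul, inv_mul_cancel₀ hψ0, one_smul]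

/-- the degree of an extension field divides the dimension -/
theorem fld_dvd [Finite F] (hn : 0 < n) {r : ℕ} {K : Subalgebra F (Matrix (Fin n) (Fin n) F)}
    (hK : IsFieldSubalgebra r K) : r ∣ n := by
  haveI : Nonempty (Fin n) := ⟨⟨0, hn⟩⟩
  let K' : Subalgebra F (Module.End F (Fin n → F)) := K.map (tl n F).toAlgHom
  have hfield : IsField K' := by
    refine ⟨⟨0, 1, fun h => ?_⟩, ?_, ?_⟩
    · have h1 := congrArg Subtype.val h
      exact zero_ne_one h1
    · rintro ⟨_, x, hx, rfl⟩ ⟨_, y, hy, rfl⟩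
      apply Subtype.ext
      show tl n F x * tl n F y = tl n F y * tl n F x
      rw [← map_mul, ← map_mul, hK.comm x hx y hy]
    · rintro ⟨_, x, hx, rfl⟩ h0
      have hx0 : x ≠ 0 := by
        rintro rfl
        apply h0
        apply Subtype.ext
        exact map_zero _
      obtain ⟨y, hy, hxy⟩ := hK.inv x hx hx0
      refine ⟨⟨_, y, hy, rfl⟩, Subtype.ext ?_⟩
      show tl n F x * tl n F y = 1
      rw [← map_mul, hxy, map_one]
  letI : Field K' := { hfield.toField with }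
  have h1 := Module.finrank_mul_finrank F K' (Fin n → F)
  rw [Module.finrank_fintype_fun_eq_card, Fintype.card_fin] at h1
  have h2 : finrank F K' = r := by
    rw [← hK.finrank_eq]
    exact (K.equivMapOfInjective (tl n F).toAlgHom (tl n F).injective).toLinearEquiv.finrank_eq.symm
  rw [h2] at h1
  exact ⟨_, h1.symm⟩

end Cfsg.Agent.H29.Asc
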