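import Mathlib
import Cfsg.Agent.H29_Fm1
import Cfsg.Agent.H29_Max1

set_option autoImplicit false

/-! groups generated by isotropic transvections are in no geometric class -/

namespace Cfsg.Agent.H29.Fm

open Matrix Module Cfsg.Geo Cfsg.Agent.H29.Clifford Cfsg.Agent.H29.Asc Cfsg.Agent.H29.AscF Cfsg.Agent.H29.Trv
open scoped commutatorElement

variable {F : Type*} [Field F] {n k m r t : ℕ}
variable {τ : F ≃+* F} {ε : F} {f : (Fin n → F) → (Fin n → F) → F}
variable {X : Subgroup (GL (Fin n) F)}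

/-- `X` contains a transvection with every isotropic centre -/
def TV (f : (Fin n → F) → (Fin n → F) → F) (X : Subgroup (GL (Fin n) F)) : Prop :=
  ∀ v, v ≠ 0 → f v v = 0 → ∃ a : F, a ≠ 0 ∧ ∃ g ∈ X, ∀ x, (g : Matrix (Fin n) (Fin n) F) *ᵥ x = x + (a * f x v) • v

/-- the isotropic vectors span -/
def SPN (f : (Fin n → F) → (Fin n → F) → F) : Prop :=
  ∀ W : Submodule F (Fin n → F), (∀ v, f v v = 0 → v ∈ W) → W = ⊤

/-- the functional `f · v` -/
def fn (h : SFm τ ε f) (v : Fin n → F) : (Fin n → F) →ₗ[F] F where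
  toFun x := f x v
  map_add' x y := h.add_left x y v
  map_smul' c x := h.smul_left c x v

theorem fn_apply (h : SFm τ ε f) (v x : Fin n → F) : fn h v x = f x v := rfl

theorem core_iso (h : SFm τ ε f) (hS : SPN f) {W : Submodule F (Fin n → F)}
    (H : ∀ v, v ≠ 0 → f v v = 0 → v ∈ W ∨ ∀ w ∈ W, f w v = 0) : W = ⊥ ∨ W = ⊤ := by
  by_contra hcon
  push Not at hcon
  obtain ⟨h0, h1⟩ := hcon
  -- an isotropic vector outside W
  obtain ⟨v₂, hv₂, hv₂W⟩ : ∃ v, f v v = 0 ∧ v ∉ W := by
    by_contra hc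
    push Not at hc
    exact h1 (hS W hc)
  -- an isotropic vector not orthogonal to W
  let W' : Submodule F (Fin n → F) := perp h W
  have hW' : W' ≠ ⊤ := by
    intro h2
    apply h0
    rw [eq_bot_iff]
    intro w hw
    rw [Submodule.mem_bot]
    by_contra hw0
    obtain ⟨x, hx⟩ := h.nd w hw0
    apply hx
    have : x ∈ W' := by rw [h2]; trivial
    exact this w hw
  obtain ⟨v₁, hv₁, hv₁W⟩ : ∃ v, f v v = 0 ∧ v ∉ W' := by
    by_contra hc
    push Not at hc
    exact hW' (hS W' hc)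
  have hv₂0 : v₂ ≠ 0 := fun h2 => hv₂W (by rw [h2]; exact W.zero_mem)
  have hv₁0 : v₁ ≠ 0 := fun h2 => hv₁W (by rw [h2]; exact W'.zero_mem)
  have hv₂' : ∀ w ∈ W, f w v₂ = 0 := (H v₂ hv₂0 hv₂).resolve_left hv₂W
  have hv₁' : v₁ ∈ W := by
    refine (H v₁ hv₁0 hv₁).resolve_right ?_
    intro h2
    exact hv₁W (fun w hw => h.comm_zero (h2 w hw))
  have h12 : f v₁ v₂ = 0 := hv₂' v₁ hv₁'
  have h21 : f v₂ v₁ = 0 := h.comm_zero h12
  have hsum : f (v₁ + v₂) (v₁ + v₂) = 0 := by
    rw [h.add_left, h.add_right, h.add_right, hv₁, hv₂, h12, h21]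
    ring
  have hsum0 : v₁ + v₂ ≠ 0 := by
    intro h2
    apply hv₂W
    have : v₂ = -v₁ := (neg_eq_of_add_eq_zero_right h2).symm
    rw [this]
    exact W.neg_mem hv₁'
  rcases H (v₁ + v₂) hsum0 hsum with h2 | h2
  · apply hv₂W
    have := W.sub_mem h2 hv₁'
    rwa [add_sub_cancel_left] at this
  · apply hv₁W
    intro w hw
    have h3 := h2 w hw
    rw [h.add_right, hv₂' w hw, add_zero] at h3
    exact h.comm_zero h3

/-- irreducibility -/
theorem not_le_stab (h : SFm τ ε f) (hX : TV f X) (hS : SPN f) {W : Submodule F (Fin n → F)} (h0 : W ≠ ⊥)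
    (h1 : W ≠ ⊤) : ¬ X ≤ subspaceStabilizer W := by
  intro hle
  have := core_iso h hS (W := W) (by
    intro v hv hvv
    by_cases hvW : v ∈ W
    · exact Or.inl hvW
    · right
      intro w hw
      obtain ⟨a, ha, g, hg, hgx⟩ := hX v hv hvv
      have h2 := (mem_stab_iff _ _).1 (hle hg) w hw
      rw [hgx] at h2
      have h3 := W.sub_mem h2 hw
      rw [add_sub_cancel_left] at h3
      by_contra hne
      apply hvW
      have hc : a * f w v ≠ 0 := mul_ne_zero ha hne
      have h4 := W.smul_mem (a * f w v)⁻¹ h3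
      rwa [smul_smul, inv_mul_cancel₀ hc, one_smul] at h4)
  exact this.elim h0 h1

/-- decompositions into subspaces of dimension at least two -/
theorem not_le_dec (h : SFm τ ε f) (hX : TV f X) (hS : SPN f) {D : Fin t → Submodule F (Fin n → F)}
    (hD : IsMDecomposition k D) (hk : 2 ≤ k) : ¬ X ≤ decompositionStabilizer D := by
  intro hle
  have ht := hD.two_le
  let i₀ : Fin t := ⟨0, by omega⟩
  let i₁ : Fin t := ⟨1, by omega⟩
  have hdisj : ∀ i j, i ≠ j → D i ⊓ D j = ⊥ := fun i j hij => disjoint_iff.1 (hD.indep.pairwiseDisjoint hij)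
  have hne : ∀ i, D i ≠ ⊥ := by
    intro i h0
    have := hD.finrank_eq i
    rw [h0, finrank_bot] at this
    omega
  have := core_iso h hS (W := D i₀) (by
    intro v hv hvv
    obtain ⟨a, ha, g, hg, hgx⟩ := hX v hv hvv
    obtain ⟨σ, hσ⟩ := hle hg
    have hσ0 : σ i₀ = i₀ := by
      by_contra hne'
      obtain ⟨x, hx, hx0, hxv⟩ : ∃ x ∈ D i₀, x ≠ 0 ∧ f x v = 0 := by
        let φ : D i₀ →ₗ[F] F := (fn h v).comp (D i₀).subtype
        have h2 := LinearMap.finrank_range_add_finrank_ker φ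
        rw [hD.finrank_eq] at h2
        have h3 : finrank F (LinearMap.range φ) ≤ 1 := by
          have := Submodule.finrank_le (LinearMap.range φ)
          simpa using this
        have h4 : 0 < finrank F (LinearMap.ker φ) := by omega
        have h4' : LinearMap.ker φ ≠ ⊥ := by
          intro h5
          rw [h5, finrank_bot] at h4
          exact lt_irrefl _ h4
        obtain ⟨y, hy, hy0⟩ := (Submodule.ne_bot_iff _).1 h4'
        refine ⟨y, y.2, ?_, hy⟩
        intro h5
        apply hy0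
        exact Subtype.ext h5
      have hgx0 : (g : Matrix (Fin n) (Fin n) F) *ᵥ x = x := by
        rw [hgx, hxv, mul_zero, zero_smul, add_zero]
      have h5 : x ∈ D (σ i₀) := by
        rw [← hσ i₀, ← hgx0]
        exact ⟨x, hx, rfl⟩
      have h6 : x ∈ D i₀ ⊓ D (σ i₀) := ⟨hx, h5⟩
      rw [hdisj _ _ (Ne.symm hne'), Submodule.mem_bot] at h6
      exact hx0 h6
    by_cases hvW : v ∈ D i₀
    · exact Or.inl hvW
    · right
      intro w hw
      have h2 : (g : Matrix (Fin n) (Fin n) F) *ᵥ w ∈ D i₀ := by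
        have : (g : Matrix (Fin n) (Fin n) F) *ᵥ w ∈ D (σ i₀) := by
          rw [← hσ i₀]
          exact ⟨w, hw, rfl⟩
        rwa [hσ0] at this
      rw [hgx] at h2
      have h3 := (D i₀).sub_mem h2 hw
      rw [add_sub_cancel_left] at h3
      by_contra hne
      apply hvW
      have hc : a * f w v ≠ 0 := mul_ne_zero ha hne
      have h4 := (D i₀).smul_mem (a * f w v)⁻¹ h3
      rwa [smul_smul, inv_mul_cancel₀ hc, one_smul] at h4)
  rcases this with h2 | h2
  · exact hne _ h2
  · have h3 := hdisj i₀ i₁ (by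
      intro h; exact absurd (congrArg Fin.val h) (by simp [i₀, i₁]))
    rw [h2, top_inf_eq] at h3
    exact hne _ h3

theorem exists_iso (hn : 0 < n) (hS : SPN f) : ∃ v, v ≠ 0 ∧ f v v = 0 := by
  by_contra hcon
  push Not at hcon
  have := hS ⊥ (by
    intro v hv
    rw [Submodule.mem_bot]
    by_contra h0
    exact hcon v h0 hv)
  have h2 : (Pi.single ⟨0, hn⟩ (1 : F) : Fin n → F) ∈ (⊥ : Submodule F (Fin n → F)) := by rw [this]; trivial
  rw [Submodule.mem_bot] at h2
  have := congrFun h2 ⟨0, hn⟩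
  rw [Pi.single_eq_same] at this
  exact one_ne_zero this

/-- extension fields -/
theorem not_le_fld (hn : 3 ≤ n) (h : SFm τ ε f) (hX : TV f X) (hS : SPN f) (hr : 1 < r)
    {K : Subalgebra F (Matrix (Fin n) (Fin n) F)} (hK : IsFieldSubalgebra r K) : ¬ X ≤ subalgebraNormalizer K := by
  intro hle
  obtain ⟨v, hv, hvv⟩ := exists_iso (by omega) hS
  obtain ⟨a, ha, g, hg, hgx⟩ := hX v hv hvv
  haveI : Nonempty (Fin n) := ⟨⟨0, by omega⟩⟩
  have hgg : ((g⁻¹ : GL (Fin n) F) : Matrix (Fin n) (Fin n) F) * (g : Matrix (Fin n) (Fin n) F) = 1 := by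
    rw [← Units.val_mul, inv_mul_cancel, Units.val_one]
  have hsc : ∀ κ ∈ K, ∃ c : F, κ = algebraMap F _ c := by
    intro κ hκ
    have h1 := (hle hg κ).1 hκ
    set κ' := (g : Matrix (Fin n) (Fin n) F) * κ * ((g⁻¹ : GL (Fin n) F) : Matrix (Fin n) (Fin n) F) with hκ'
    have hκg : κ' * (g : Matrix (Fin n) (Fin n) F) = (g : Matrix (Fin n) (Fin n) F) * κ := by
      rw [hκ', mul_assoc, hgg, mul_one]
    have hdiff : ∀ x, (κ' - κ) *ᵥ ((g : Matrix (Fin n) (Fin n) F) *ᵥ x) = (a * f (κ *ᵥ x) v) • v - (a * f x v) • (κ *ᵥ v) := by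
      intro x
      rw [Matrix.sub_mulVec, Matrix.mulVec_mulVec, hκg, ← Matrix.mulVec_mulVec, hgx, hgx, Matrix.mulVec_add,
        Matrix.mulVec_smul]
      abel
    have heq : κ' = κ := by
      by_contra hne
      have h2 : κ' - κ ∈ K := K.sub_mem h1 hκ
      obtain ⟨y, hy, hyy⟩ := hK.inv _ h2 (sub_ne_zero.2 hne)
      have hyy' : y * (κ' - κ) = 1 := mul_eq_one_comm.1 hyy
      obtain ⟨w, hw0, hw1, hw2⟩ := exists_ker2 hn (fn h v) ((fn h v).comp (Matrix.mulVecLin κ))
      have h3 := hdiff w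
      have e1 : f w v = 0 := hw1
      have e2 : f (κ *ᵥ w) v = 0 := hw2
      rw [e1, e2, mul_zero, zero_smul, zero_smul, sub_zero] at h3
      apply hw0
      apply mulVec_inj (g := g)
      rw [Matrix.mulVec_zero]
      have h4 := congrArg (fun z => y *ᵥ z) h3
      simp only [Matrix.mulVec_mulVec, ← mul_assoc, hyy', one_mul, Matrix.mulVec_zero] at h4
      exact h4
    obtain ⟨x, hx⟩ := h.nd v hv
    have h5 := hdiff x
    rw [heq, sub_self, Matrix.zero_mulVec] at h5
    have h6 : κ *ᵥ v = ((a * f x v)⁻¹ * (a * f (κ *ᵥ x) v)) • v := by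
      have h7 : (a * f x v) • (κ *ᵥ v) = (a * f (κ *ᵥ x) v) • v := (sub_eq_zero.1 h5.symm).symm
      have hc : a * f x v ≠ 0 := mul_ne_zero ha hx
      rw [← smul_smul, ← h7, smul_smul, inv_mul_cancel₀ hc, one_smul]
    set c := (a * f x v)⁻¹ * (a * f (κ *ᵥ x) v)
    refine ⟨c, ?_⟩
    by_contra hne
    have h8 : κ - algebraMap F _ c ∈ K := K.sub_mem hκ (K.algebraMap_mem c)
    obtain ⟨y, hy, hyy⟩ := hK.inv _ h8 (sub_ne_zero.2 hne)
    have hyy' : y * (κ - algebraMap F _ c) = 1 := mul_eq_one_comm.1 hyy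
    have h9 : (κ - algebraMap F (Matrix (Fin n) (Fin n) F) c) *ᵥ v = 0 := by
      rw [Matrix.sub_mulVec, h6, Algebra.algebraMap_eq_smul_one, Matrix.smul_mulVec, Matrix.one_mulVec, sub_self]
    apply hv
    have h10 := congrArg (fun z => y *ᵥ z) h9
    simp only [Matrix.mulVec_mulVec, hyy', Matrix.one_mulVec, Matrix.mulVec_zero] at h10
    exact h10
  have h1 : finrank F K = 1 := by
    rw [finrank_eq_one_iff_of_nonzero' (1 : K) (by
      intro h
      have h0 : (1 : Matrix (Fin n) (Fin n) F) = 0 := congrArg Subtype.val h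
      exact one_ne_zero h0)]
    rintro ⟨κ, hκ⟩
    obtain ⟨c, hc⟩ := hsc κ hκ
    refine ⟨c, ?_⟩
    apply Subtype.ext
    show c • (1 : Matrix (Fin n) (Fin n) F) = κ
    rw [hc, Algebra.algebraMap_eq_smul_one]
  rw [hK.finrank_eq] at h1
  omega

/-- groups of symplectic type -/
theorem not_le_norm (hn : 5 ≤ n) (h : SFm τ ε f) (hX : TV f X) (hS : SPN f) {R : Subgroup (GL (Fin n) F)}
    (henv : env R = ⊤) (hcomm : ∀ x ∈ R, ∀ y ∈ R, ⁅x, y⁆ ∈ scalars (Fin n) F) : ¬ X ≤ subgroupNormalizer R := by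
  intro hle
  have hn0 : 0 < n := by omega
  haveI : Nonempty (Fin n) := ⟨⟨0, hn0⟩⟩
  obtain ⟨v, hv, hvv⟩ := exists_iso hn0 hS
  obtain ⟨a, ha, g, hg, hgx⟩ := hX v hv hvv
  have hgfix : ∀ x, f x v = 0 → (g : Matrix (Fin n) (Fin n) F) *ᵥ x = x := by
    intro x hx
    rw [hgx, hx, mul_zero, zero_smul, add_zero]
  have hgfix' : ∀ x, f x v = 0 → ((g⁻¹ : GL (Fin n) F) : Matrix (Fin n) (Fin n) F) *ᵥ x = x := by
    intro x hx
    conv_lhs => rw [← hgfix x hx]
    exact inv_mulVec_self g x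
  have hgR : ∀ x ∈ R, g * x * g⁻¹ ∈ R := fun x hx => ((Subgroup.mem_normalizer_iff.1 (hle hg)) x).1 hx
  have hcen : ∀ x ∈ R, g * x = x * g := by
    intro x hx
    set y := g * x * g⁻¹ * x⁻¹ with hy
    have hyR : y ∈ R := R.mul_mem (hgR x hx) (R.inv_mem hx)
    let E : Submodule F (Fin n → F) := LinearMap.ker (fn h v) ⊓ LinearMap.ker ((fn h v).comp (lin x⁻¹))
    have hEfix : ∀ u ∈ E, (y : Matrix (Fin n) (Fin n) F) *ᵥ u = u := by
      rintro u ⟨hu1, hu2⟩
      have e1 : f u v = 0 := hu1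
      have e2 : f (((x⁻¹ : GL (Fin n) F) : Matrix (Fin n) (Fin n) F) *ᵥ u) v = 0 := hu2
      rw [hy, Units.val_mul, Units.val_mul, Units.val_mul, ← Matrix.mulVec_mulVec, ← Matrix.mulVec_mulVec,
        ← Matrix.mulVec_mulVec, hgfix' _ e2, self_inv_mulVec, hgfix _ e1]
    have hEdim : n ≤ finrank F E + 2 := by
      have h1 := Submodule.finrank_sup_add_finrank_inf_eq (LinearMap.ker (fn h v)) (LinearMap.ker ((fn h v).comp (lin x⁻¹)))
      have h2 : ∀ φ : (Fin n → F) →ₗ[F] F, n ≤ finrank F (LinearMap.ker φ) + 1 := by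
        intro φ
        have h3 := LinearMap.finrank_range_add_finrank_ker φ
        have h4 : finrank F (LinearMap.range φ) ≤ 1 := by
          have := Submodule.finrank_le (LinearMap.range φ)
          simpa using this
        rw [Module.finrank_fintype_fun_eq_card, Fintype.card_fin] at h3
        omega
      have h5 := h2 (fn h v)
      have h6 := h2 ((fn h v).comp (lin x⁻¹))
      have h7 : finrank F ↥(LinearMap.ker (fn h v) ⊔ LinearMap.ker ((fn h v).comp (lin x⁻¹))) ≤ n := by
        have := Submodule.finrank_le (LinearMap.ker (fn h v) ⊔ LinearMap.ker ((fn h v).comp (lin x⁻¹)))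
        rwa [Module.finrank_fintype_fun_eq_card, Fintype.card_fin] at this
      show n ≤ finrank F ↥(LinearMap.ker (fn h v) ⊓ LinearMap.ker ((fn h v).comp (lin x⁻¹))) + 2
      omega
    have hysc : y ∈ scalars (Fin n) F := by
      by_contra hys
      obtain ⟨w, hw, hwy⟩ : ∃ w ∈ R, y * w ≠ w * y := by
        by_contra hc
        push Not at hc
        exact hys (scalar_of_commute hn0 henv hc)
      obtain ⟨c, hc⟩ := mem_scalars.1 (hcomm y hyR w hw)
      have hc1 : c ≠ 1 := by
        rintro rfl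
        rw [map_one] at hc
        apply hwy
        have := hc.symm
        rwa [commutatorElement_eq_one_iff_mul_comm] at this
      have hyw : ∀ u ∈ E, (y : Matrix (Fin n) (Fin n) F) *ᵥ ((w : Matrix (Fin n) (Fin n) F) *ᵥ u) =
          (c : F) • ((w : Matrix (Fin n) (Fin n) F) *ᵥ u) := by
        intro u hu
        have h8 : y * w = sc n F c * (w * y) := by
          rw [hc, commutatorElement_def]; group
        rw [Matrix.mulVec_mulVec, ← Units.val_mul, h8, Units.val_mul, sc_coe, Matrix.smul_mul, one_mul,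
          Matrix.smul_mulVec, Units.val_mul, ← Matrix.mulVec_mulVec, hEfix u hu]
      let E' : Submodule F (Fin n → F) := E.map (lin w)
      have hdisj : E ⊓ E' = ⊥ := by
        rw [eq_bot_iff]
        rintro u ⟨hu1, ⟨u', hu', rfl⟩⟩
        rw [Submodule.mem_bot]
        have h9 := hEfix _ hu1
        rw [lin_apply, hyw u' hu'] at h9
        have h10 : ((c : F) - 1) • ((w : Matrix (Fin n) (Fin n) F) *ᵥ u') = 0 := by
          rw [sub_smul, one_smul, h9, sub_self]
        rw [lin_apply]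
        refine (smul_eq_zero.1 h10).resolve_left ?_
        intro h11
        exact hc1 (Units.ext (sub_eq_zero.1 h11))
      have hE'dim : finrank F E' = finrank F E := by
        have hinj : Function.Injective (lin w) := fun a b hab => mulVec_inj (g := w) hab
        exact (Submodule.equivMapOfInjective (lin w) hinj E).finrank_eq.symm
      have h12 := Submodule.finrank_sup_add_finrank_inf_eq E E'
      rw [hdisj, finrank_bot, hE'dim] at h12
      have h13 : finrank F ↥(E ⊔ E') ≤ n := by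
        have := Submodule.finrank_le (E ⊔ E')
        rwa [Module.finrank_fintype_fun_eq_card, Fintype.card_fin] at this
      omega
    obtain ⟨c, hc⟩ := mem_scalars.1 hysc
    have hE0 : 0 < finrank F E := by omega
    have hE1 : E ≠ ⊥ := by
      intro h5
      rw [h5, finrank_bot] at hE0
      exact lt_irrefl _ hE0
    obtain ⟨u, hu, hu0'⟩ := (Submodule.ne_bot_iff _).1 hE1
    have h14 := hEfix u hu
    rw [← hc, sc_coe, Matrix.smul_mulVec, Matrix.one_mulVec] at h14
    have h15 : ((c : F) - 1) • u = 0 := by rw [sub_smul, one_smul, h14, sub_self]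
    have hc1 : c = 1 := by
      apply Units.ext
      exact sub_eq_zero.1 ((smul_eq_zero.1 h15).resolve_right hu0')
    rw [hc1, map_one] at hc
    have h16 : g * x * g⁻¹ * x⁻¹ = 1 := by rw [← hy, ← hc]
    calc g * x = (g * x * g⁻¹ * x⁻¹) * (x * g) := by group
      _ = x * g := by rw [h16, one_mul]
  have hgs := scalar_of_commute hn0 henv hcen
  obtain ⟨c, hc⟩ := mem_scalars.1 hgs
  have h1 := hgx v
  rw [hvv, mul_zero, zero_smul, add_zero, ← hc, sc_coe, Matrix.smul_mulVec, Matrix.one_mulVec] at h1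
  have hc1 : c = 1 := by
    have h15 : ((c : F) - 1) • v = 0 := by rw [sub_smul, one_smul, h1, sub_self]
    apply Units.ext
    exact sub_eq_zero.1 ((smul_eq_zero.1 h15).resolve_right hv)
  obtain ⟨x, hx⟩ := h.nd v hv
  have h2 := hgx x
  rw [← hc, hc1, map_one, Units.val_one, Matrix.one_mulVec] at h2
  have h3 : (a * f x v) • v = 0 := by
    have := left_eq_add.1 h2
    exact this
  rcases smul_eq_zero.1 h3 with h4 | h4
  · exact mul_ne_zero ha hx h4
  · exact hv h4

end Cfsg.Agent.H29.Fm
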