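import Mathlib
import Cfsg.Agent.H29_Un1
import Cfsg.Agent.H29_Fm16
import Cfsg.Agent.H29_Max2

set_option autoImplicit false

/-! the special unitary group is in no geometric class -/

namespace Cfsg.Agent.H29.Fm

open Matrix Module Cfsg.Geo Cfsg.Agent.H29.Clifford Cfsg.Agent.H29.Asc Cfsg.Agent.H29.AscF Cfsg.Agent.H29.Trv
  Cfsg.Agent.H29.AscT
open scoped commutatorElement Kronecker

variable {F : Type*} [Field F] {n k m r t : ℕ}
variable {τ : F ≃+* F} {ε : F} {f : (Fin n → F) → (Fin n → F) → F}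
variable {X : Subgroup (GL (Fin n) F)}

/-- centres of transvections in subfield groups are rational -/
theorem rat_centre [Fintype F] (hn : 3 ≤ n) {F₀ : Subfield F} {P g : GL (Fin n) F} (hg : g ∈ subfieldSubgroup F₀ P)
    {φ : (Fin n → F) →ₗ[F] F} {v : Fin n → F} (hφ : φ ≠ 0)
    (hgx : ∀ x, (g : Matrix (Fin n) (Fin n) F) *ᵥ x = x + φ x • v) :
    ∃ d : F, d ≠ 0 ∧ ∀ i, d * (((P⁻¹ : GL (Fin n) F) : Matrix (Fin n) (Fin n) F) *ᵥ v) i ∈ F₀ := by
  rw [mem_subfieldSubgroup_iff] at hg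
  set T := P⁻¹ * g * P with hT
  rw [Subgroup.mem_sup_of_normal_right] at hg
  obtain ⟨_, ⟨y, rfl⟩, _, ⟨d, rfl⟩, hyd⟩ := hg
  have h4 : ∀ i j, (T : Matrix (Fin n) (Fin n) F) i j = ((y : Matrix (Fin n) (Fin n) F₀) i j : F) * d := by
    intro i j
    rw [← hyd]
    have : (Matrix.GeneralLinearGroup.map (F₀.subtype : F₀ →+* F) y *
      (Units.map (Matrix.scalar (Fin n) : F →+* Matrix (Fin n) (Fin n) F).toMonoidHom d) : GL (Fin n) F) =
      Matrix.GeneralLinearGroup.map (F₀.subtype : F₀ →+* F) y * sc n F d := rfl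
    rw [this, Units.val_mul, sc_coe, Matrix.mul_smul, mul_one, Matrix.smul_apply, smul_eq_mul, mul_comm]
    rfl
  set u := ((P⁻¹ : GL (Fin n) F) : Matrix (Fin n) (Fin n) F) *ᵥ v with hu
  let w : Fin n → F := fun j => φ ((P : Matrix (Fin n) (Fin n) F) *ᵥ Pi.single j 1)
  have hTe : ∀ i j, (T : Matrix (Fin n) (Fin n) F) i j = (1 : Matrix (Fin n) (Fin n) F) i j + u i * w j := by
    intro i j
    have h5 : (T : Matrix (Fin n) (Fin n) F) i j = ((T : Matrix (Fin n) (Fin n) F) *ᵥ (Pi.single j 1)) i := by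
      rw [Matrix.mulVec_single_one]; rfl
    rw [h5, hT, Units.val_mul, Units.val_mul, ← Matrix.mulVec_mulVec, ← Matrix.mulVec_mulVec, hgx, Matrix.mulVec_add,
      inv_mulVec_self, Matrix.mulVec_smul, Pi.add_apply, Pi.smul_apply, smul_eq_mul, mul_comm]
    congr 1
    rw [Matrix.one_apply, Pi.single_apply]
  obtain ⟨ψ, hψ, hψm⟩ := exists_phi F₀
  have hy : ∀ i j, ψ ((y : Matrix (Fin n) (Fin n) F₀) i j : F) = ((y : Matrix (Fin n) (Fin n) F₀) i j : F) :=
    fun i j => (hψm _).1 (Subtype.mem _)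
  have hdF : ψ (d : F) = d := by
    by_contra hne
    -- a common kernel vector
    let W1 : (Fin n → F) →ₗ[F] F := ∑ j, w j • (LinearMap.proj j : (Fin n → F) →ₗ[F] F)
    let W2 : (Fin n → F) →ₗ[F] F := ∑ j, ψ (w j) • (LinearMap.proj j : (Fin n → F) →ₗ[F] F)
    obtain ⟨x, hx0, hx1, hx2⟩ := exists_ker2 hn W1 W2
    have e1 : ∑ j, w j * x j = 0 := by
      have := hx1
      simpa [W1, LinearMap.sum_apply] using this
    have e2 : ∑ j, ψ (w j) * x j = 0 := by
      have := hx2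
      simpa [W2, LinearMap.sum_apply] using this
    apply hx0
    funext i
    have h6 : ∀ j, ψ (d : F) * ((1 : Matrix (Fin n) (Fin n) F) i j + u i * w j) =
        d * ((1 : Matrix (Fin n) (Fin n) F) i j + ψ (u i) * ψ (w j)) := by
      intro j
      have h7 : ψ ((T : Matrix (Fin n) (Fin n) F) i j) = (1 : Matrix (Fin n) (Fin n) F) i j + ψ (u i) * ψ (w j) := by
        rw [hTe, map_add, map_mul]
        congr 1
        by_cases hij : i = j
        · subst hij; rw [Matrix.one_apply_eq, map_one]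
        · rw [Matrix.one_apply_ne hij, map_zero]
      rw [← h7, ← hTe, h4, map_mul, hy]
      ring
    have h8 : ∑ j, (ψ (d : F) * ((1 : Matrix (Fin n) (Fin n) F) i j + u i * w j)) * x j =
        ∑ j, (d * ((1 : Matrix (Fin n) (Fin n) F) i j + ψ (u i) * ψ (w j))) * x j :=
      Finset.sum_congr rfl (fun j _ => by rw [h6 j])
    have h9 : ∀ (c a : F) (z : Fin n → F), ∑ j, (c * ((1 : Matrix (Fin n) (Fin n) F) i j + a * z j)) * x j =
        c * x i + c * a * ∑ j, z j * x j := by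
      intro c a z
      have h10 : ∀ j, (c * ((1 : Matrix (Fin n) (Fin n) F) i j + a * z j)) * x j =
          c * ((1 : Matrix (Fin n) (Fin n) F) i j * x j) + c * a * (z j * x j) := by intro j; ring
      rw [Finset.sum_congr rfl (fun j _ => h10 j), Finset.sum_add_distrib, ← Finset.mul_sum, ← Finset.mul_sum]
      congr 2
      have : ∑ j, (1 : Matrix (Fin n) (Fin n) F) i j * x j = ((1 : Matrix (Fin n) (Fin n) F) *ᵥ x) i := rfl
      rw [this, Matrix.one_mulVec]
    rw [h9, h9, e1, e2] at h8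
    have h11 : (ψ (d : F) - d) * x i = 0 := by linear_combination h8
    exact (mul_eq_zero.1 h11).resolve_left (sub_ne_zero.2 hne)
  have hdF' : (d : F) ∈ F₀ := (hψm _).2 hdF
  have hw : ∃ j, w j ≠ 0 := by
    by_contra hcon
    push Not at hcon
    apply hφ
    have h12 : φ.comp (Matrix.mulVecLin (P : Matrix (Fin n) (Fin n) F)) = 0 := by
      apply (Pi.basisFun F (Fin n)).ext
      intro j
      rw [Pi.basisFun_apply]
      exact hcon j
    apply LinearMap.ext
    intro x
    have h13 := LinearMap.congr_fun h12 (((P⁻¹ : GL (Fin n) F) : Matrix (Fin n) (Fin n) F) *ᵥ x)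
    rw [LinearMap.comp_apply, Matrix.mulVecLin_apply, self_inv_mulVec] at h13
    exact h13
  obtain ⟨j, hj⟩ := hw
  refine ⟨w j, hj, fun i => ?_⟩
  have h14 : w j * u i = (T : Matrix (Fin n) (Fin n) F) i j - (1 : Matrix (Fin n) (Fin n) F) i j := by
    rw [hTe]; ring
  rw [h14, h4]
  apply F₀.sub_mem (F₀.mul_mem (Subtype.mem _) hdF')
  by_cases hij : i = j
  · subst hij; rw [Matrix.one_apply_eq]; exact F₀.one_mem
  · rw [Matrix.one_apply_ne hij]; exact F₀.zero_mem

/-- Kronecker coordinates -/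
theorem coord_mul {κ : Type} [Fintype κ] [DecidableEq κ] (e : Fin n ≃ κ) (P : GL (Fin n) F) (Y : GL κ F) (w : κ → F) :
    ((P * glReindex e.symm Y * P⁻¹ : GL (Fin n) F) : Matrix (Fin n) (Fin n) F) *ᵥ
      ((P : Matrix (Fin n) (Fin n) F) *ᵥ (w ∘ e)) = (P : Matrix (Fin n) (Fin n) F) *ᵥ (((Y : Matrix κ κ F) *ᵥ w) ∘ e) := by
  rw [Units.val_mul, ← Matrix.mulVec_mulVec, inv_mulVec_self, Units.val_mul, ← Matrix.mulVec_mulVec]
  congr 1
  funext i
  show ∑ j, (Y : Matrix κ κ F) (e i) (e j) * w (e j) = ∑ a, (Y : Matrix κ κ F) (e i) a * w a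
  exact Equiv.sum_comp e (fun a => (Y : Matrix κ κ F) (e i) a * w a)

/-- the matrix of a transvection in orthonormal coordinates -/
theorem trv_coord (h : SFm τ ε f) (hX : TV f X) {κ : Type} [Fintype κ] [DecidableEq κ] {e : Fin n ≃ κ}
    {P : GL (Fin n) F} {c : F} (hc : c ≠ 0)
    (H : ∀ x y : κ → F, f ((P : Matrix (Fin n) (Fin n) F) *ᵥ (x ∘ e))
      ((P : Matrix (Fin n) (Fin n) F) *ᵥ (y ∘ e)) = c * formOfGram τ 1 x y) {x y : κ} (hxy : x ≠ y) {a : F}
    (ha : a * τ a = -1) : ∃ b : F, b ≠ 0 ∧ ∃ g ∈ X, ∀ Y : GL κ F, g = P * glReindex e.symm Y * P⁻¹ →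
      ∀ p q, (Y : Matrix κ κ F) p q = (if p = q then 1 else 0) +
        b * ((if q = x then 1 else 0) + τ a * (if q = y then 1 else 0)) *
          ((if p = x then 1 else 0) + a * (if p = y then 1 else 0)) := by
  have hf : ∀ u v : κ → F, f ((P : Matrix (Fin n) (Fin n) F) *ᵥ (u ∘ e)) ((P : Matrix (Fin n) (Fin n) F) *ᵥ (v ∘ e)) =
      c * ∑ i, u i * τ (v i) := by
    intro u v
    rw [H, formOfGram_eq, Matrix.one_mulVec]
    rfl
  let w : κ → F := fun p => (if p = x then 1 else 0) + a * (if p = y then 1 else 0)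
  have hw : ∀ u : κ → F, ∑ i, u i * τ (w i) = u x + τ a * u y := by
    intro u
    have h1 : ∀ i, u i * τ (w i) = (if i = x then u i else 0) + (if i = y then τ a * u i else 0) := by
      intro i
      show u i * τ ((if i = x then 1 else 0) + a * (if i = y then 1 else 0)) = _
      rw [map_add, map_mul]
      split_ifs <;> simp <;> ring
    rw [Finset.sum_congr rfl (fun i _ => h1 i), Finset.sum_add_distrib, Finset.sum_ite_eq', Finset.sum_ite_eq']
    simp
  have hwx : w x = 1 := by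
    show (if x = x then (1 : F) else 0) + a * (if x = y then 1 else 0) = 1
    rw [if_pos rfl, if_neg hxy]; ring
  have hwy : w y = a := by
    show (if y = x then (1 : F) else 0) + a * (if y = y then 1 else 0) = a
    rw [if_neg (Ne.symm hxy), if_pos rfl]; ring
  set v := (P : Matrix (Fin n) (Fin n) F) *ᵥ (w ∘ e) with hv
  have hvv : f v v = 0 := by
    rw [hv, hf, hw, hwx, hwy, mul_comm (τ a), ha]
    ring
  have hv0 : v ≠ 0 := by
    intro h0
    have h1 : w ∘ e = 0 := by
      have := congrArg (fun z => ((P⁻¹ : GL (Fin n) F) : Matrix (Fin n) (Fin n) F) *ᵥ z) h0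
      simp only [hv, inv_mulVec_self, Matrix.mulVec_zero] at this
      exact this
    have h2 := congrFun h1 (e.symm x)
    rw [Function.comp_apply, Equiv.apply_symm_apply, hwx] at h2
    exact one_ne_zero h2
  obtain ⟨a₀, ha₀, g, hg, hgx⟩ := hX v hv0 hvv
  refine ⟨a₀ * c, mul_ne_zero ha₀ hc, g, hg, ?_⟩
  intro Y hY p q
  have h3 := hgx ((P : Matrix (Fin n) (Fin n) F) *ᵥ ((Pi.single q (1 : F) : κ → F) ∘ e))
  rw [hY, coord_mul, hv, hf, hw, ← Matrix.mulVec_smul, ← Matrix.mulVec_add] at h3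
  have h4 := mulVec_inj (g := P) h3
  have h5 := congrFun h4 (e.symm p)
  rw [Function.comp_apply, Equiv.apply_symm_apply, Matrix.mulVec_single_one] at h5
  have h6 : (Y : Matrix κ κ F).col q p = (Y : Matrix κ κ F) p q := rfl
  rw [h6] at h5
  rw [h5]
  simp only [Pi.add_apply, Function.comp_apply, Equiv.apply_symm_apply, Pi.smul_apply, smul_eq_mul, Pi.single_apply]
  show (if p = q then (1 : F) else 0) + a₀ * (c * ((if x = q then 1 else 0) + τ a * (if y = q then 1 else 0))) * w p = _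
  simp only [eq_comm (a := x) (b := q), eq_comm (a := y) (b := q)]
  show _ = (if p = q then (1 : F) else 0) + a₀ * c * ((if q = x then 1 else 0) + τ a * (if q = y then 1 else 0)) * w p
  ring

/-- a number of norm minus one -/
theorem exists_neg [Fintype F] (hτ : τ ≠ RingEquiv.refl F) (hinv : ∀ a, τ (τ a) = a) : ∃ a : F, a * τ a = -1 := by
  obtain ⟨d, -, hd⟩ := norm_surj hτ hinv (c := -1) (neg_ne_zero.2 one_ne_zero) (by rw [map_neg, map_one])
  exact ⟨d, hd⟩

end Cfsg.Agent.H29.Fm
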