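import Mathlib
import Cfsg.Agent.H29_Un2
import Cfsg.Agent.H5_Unit

set_option autoImplicit false

/-! the special unitary group is in no geometric class, II -/

namespace Cfsg.Agent.H29.Fm

open Matrix Module Cfsg.Geo Cfsg.Agent.H29.Clifford Cfsg.Agent.H29.Asc Cfsg.Agent.H29.AscF Cfsg.Agent.H29.Trv
  Cfsg.Agent.H29.AscT
open scoped commutatorElement Kronecker

variable {F : Type*} [Field F] {n k m r t : ℕ}

/-- the automorphism `x ↦ x ^ q` -/
noncomputable def fq [Fintype F] {q : ℕ} (hF : Fintype.card F = q ^ 2) : F ≃+* F :=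
  RingEquiv.ofBijective (Cfsg.Agent.H5.Fld.frob hF) (Finite.injective_iff_bijective.1 (RingHom.injective _))

theorem fq_apply [Fintype F] {q : ℕ} (hF : Fintype.card F = q ^ 2) (x : F) : fq hF x = x ^ q :=
  Cfsg.Agent.H5.Fld.frob_apply hF x

theorem fq_fq [Fintype F] {q : ℕ} (hF : Fintype.card F = q ^ 2) (x : F) : fq hF (fq hF x) = x :=
  Cfsg.Agent.H5.Fld.frob_frob hF x

theorem fq_ne [Fintype F] {q : ℕ} (hF : Fintype.card F = q ^ 2) : fq hF ≠ RingEquiv.refl F := by
  intro h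
  apply Cfsg.Agent.H5.Fld.frob_ne_id hF
  ext x
  have := congrArg (fun g : F ≃+* F => g x) h
  exact this

/-- the special unitary group -/
abbrev SUg (n : ℕ) (F : Type*) [Field F] (q : ℕ) : Subgroup (GL (Fin n) F) :=
  Cfsg.GU n F q ⊓ specialLinear (Fin n) F

theorem herm_eq [Fintype F] {q : ℕ} (hF : Fintype.card F = q ^ 2) (u v : Fin n → F) :
    Cfsg.hermForm n F q u v = ∑ i, u i * fq hF (v i) := by
  unfold Cfsg.hermForm
  exact Finset.sum_congr rfl (fun i _ => by rw [fq_apply])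

theorem herm_single [Fintype F] {q : ℕ} (hF : Fintype.card F = q ^ 2) (u : Fin n → F) (i : Fin n) (a : F) :
    Cfsg.hermForm n F q u (Pi.single i a) = u i * fq hF a := by
  rw [herm_eq hF, Finset.sum_eq_single i]
  · rw [Pi.single_eq_same]
  · intro j _ hj
    rw [Pi.single_eq_of_ne hj, map_zero, mul_zero]
  · intro h; exact absurd (Finset.mem_univ _) h

theorem sfm_herm [Fintype F] {q : ℕ} (hF : Fintype.card F = q ^ 2) : SFm (fq hF) 1 (Cfsg.hermForm n F q) where
  eps := Or.inl rfl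
  inv := fq_fq hF
  add_left x y v := Cfsg.Agent.H5.Unit.herm_add_left x y v
  smul_left c x v := Cfsg.Agent.H5.Unit.herm_smul_left c x v
  herm u v := by
    rw [one_mul, fq_apply, Cfsg.Agent.H5.Unit.herm_swap hF]
  nd v hv := by
    obtain ⟨i, hi⟩ : ∃ i, v i ≠ 0 := by
      by_contra hc
      push Not at hc
      exact hv (funext hc)
    refine ⟨Pi.single i 1, ?_⟩
    have h1 : Cfsg.hermForm n F q (Pi.single i 1) v = fq hF (v i) := by
      rw [fq_apply, ← Cfsg.Agent.H5.Unit.herm_swap hF, herm_single hF, map_one, mul_one]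
    rw [h1]
    exact fun h => hi ((map_eq_zero (fq hF)).1 h)

theorem fx_GU {q : ℕ} : Fx (Cfsg.hermForm n F q) (Cfsg.GU n F q) := fun _ hg => hg

theorem mem_SL {g : GL (Fin n) F} (h : (g : Matrix (Fin n) (Fin n) F).det = 1) : g ∈ specialLinear (Fin n) F := by
  show (Matrix.GeneralLinearGroup.det : GL (Fin n) F →* Fˣ) g = 1
  apply Units.ext
  exact h

theorem tv_su [Fintype F] {q : ℕ} (hF : Fintype.card F = q ^ 2) : TV (Cfsg.hermForm n F q) (SUg n F q) := by
  intro v hv hvv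
  obtain ⟨c, hc, hcc⟩ := Cfsg.Agent.H5.Unit.exists_ker_ne hF
  have hdet := Cfsg.Agent.H5.Unit.det_T v c hvv
  refine ⟨c, hc, Matrix.GeneralLinearGroup.mkOfDetNeZero (Cfsg.unitaryTransvection n q v c)
    (by rw [hdet]; exact one_ne_zero), ⟨?_, ?_⟩, ?_⟩
  · exact (Cfsg.Agent.H5.Unit.T_isometry_iff hF v hv hvv c).2 hcc
  · exact mem_SL hdet
  · intro x
    exact Cfsg.Agent.H5.Unit.T_mulVec v c x

theorem exists_norm_one [Fintype F] {q : ℕ} (hF : Fintype.card F = q ^ 2) :
    ∃ ζ : F, ζ ≠ 1 ∧ ζ * fq hF ζ = 1 := by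
  obtain ⟨x, hx⟩ : ∃ x, fq hF x ≠ x := by
    by_contra hcon
    push Not at hcon
    exact fq_ne hF (RingEquiv.ext hcon)
  have hx0 : x ≠ 0 := by
    rintro rfl
    exact hx (map_zero _)
  have hx1 : fq hF x ≠ 0 := fun h => hx0 ((map_eq_zero (fq hF)).1 h)
  refine ⟨x / fq hF x, ?_, ?_⟩
  · intro h
    rw [div_eq_one_iff_eq hx1] at h
    exact hx h.symm
  · rw [map_div₀, fq_fq]
    field_simp

theorem iso_pair [Fintype F] {q : ℕ} (hF : Fintype.card F = q ^ 2) {i j : Fin n} (hij : i ≠ j) {a : F}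
    (ha : a * fq hF a = -1) : Cfsg.hermForm n F q (Pi.single i 1 + Pi.single j a) (Pi.single i 1 + Pi.single j a) = 0 := by
  rw [(sfm_herm hF).add_right, herm_single hF, herm_single hF, map_one, Pi.add_apply, Pi.add_apply,
    Pi.single_eq_same, Pi.single_eq_same, Pi.single_eq_of_ne hij, Pi.single_eq_of_ne (Ne.symm hij)]
  linear_combination ha

theorem spn_su [Fintype F] {q : ℕ} (hF : Fintype.card F = q ^ 2) (hn : 2 ≤ n) : SPN (Cfsg.hermForm n F q) := by
  intro W hW
  obtain ⟨a, ha⟩ := exists_neg (fq_ne hF) (fq_fq hF)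
  obtain ⟨ζ, hζ1, hζ⟩ := exists_norm_one hF
  have ha0 : a ≠ 0 := by
    rintro rfl
    rw [zero_mul] at ha
    exact one_ne_zero (neg_eq_zero.1 ha.symm)
  have hb : (ζ * a) * fq hF (ζ * a) = -1 := by
    rw [map_mul]
    linear_combination ζ * fq hF ζ * ha - hζ
  have hsingle : ∀ j : Fin n, (Pi.single j (1 : F) : Fin n → F) ∈ W := by
    intro j
    obtain ⟨i, hij⟩ : ∃ i : Fin n, i ≠ j := by
      haveI : Nontrivial (Fin n) := Fin.nontrivial_iff_two_le.2 hn
      exact exists_ne j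
    have h1 := W.sub_mem (hW _ (iso_pair hF hij ha)) (hW _ (iso_pair hF hij hb))
    have h2 : (Pi.single i (1 : F) + Pi.single j a : Fin n → F) - (Pi.single i 1 + Pi.single j (ζ * a)) =
        (a - ζ * a) • (Pi.single j (1 : F) : Fin n → F) := by
      rw [add_sub_add_left_eq_sub, ← Pi.single_sub, ← Pi.single_smul, smul_eq_mul, mul_one]
    rw [h2] at h1
    have h3 : a - ζ * a ≠ 0 := by
      intro h4
      have : a * (1 - ζ) = 0 := by linear_combination h4
      rcases mul_eq_zero.1 this with h5 | h5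
      · exact ha0 h5
      · exact hζ1 (sub_eq_zero.1 h5).symm
    have h4 := W.smul_mem (a - ζ * a)⁻¹ h1
    rwa [smul_smul, inv_mul_cancel₀ h3, one_smul] at h4
  rw [eq_top_iff]
  intro x _
  rw [pi_eq_sum_univ' x]
  refine W.sum_mem (fun i _ => W.smul_mem _ ?_)
  have : (fun j => if i = j then (1 : F) else 0) = Pi.single i 1 := by
    funext j
    rw [Pi.single_apply]
    simp only [eq_comm]
  first | exact hsingle i | (rw [this]; exact hsingle i)

theorem card_sub_lt [Fintype F] {q : ℕ} (hF : Fintype.card F = q ^ 2) {F₀ : Subfield F} (hF₀ : F₀ ≠ ⊤) :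
    Nat.card F₀ ≤ q := by
  classical
  obtain ⟨F₁, r, hle, hr, hc⟩ := exists_max_subfield F₀ hF₀
  have h1 : Nat.card F₀ ≤ Nat.card F₁ := Nat.card_le_card_of_injective (Subfield.inclusion hle) (RingHom.injective _)
  refine h1.trans ?_
  have h2 : 0 < Nat.card F₁ := Nat.card_pos
  have h3 : Nat.card F₁ ^ 2 ≤ q ^ 2 := by
    rw [← hF, hc]
    exact Nat.pow_le_pow_right h2 hr.two_le
  exact le_of_pow_le_pow_left₀ (by norm_num) (Nat.zero_le _) h3

/-- subfield groups -/
theorem su_not_sub [Fintype F] {q : ℕ} (hF : Fintype.card F = q ^ 2) (hn : 3 ≤ n) {F₀ : Subfield F} (hF₀ : F₀ ≠ ⊤)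
    (P : GL (Fin n) F) : ¬ SUg n F q ≤ subfieldSubgroup F₀ P := by
  intro hle
  obtain ⟨φ, hφ, hφm⟩ := exists_phi F₀
  have hφi : Function.Injective φ := φ.injective
  let Θ : (Fin n → F) → (Fin n → F) := fun v => (P : Matrix (Fin n) (Fin n) F) *ᵥ
    (fun i => φ ((((P⁻¹ : GL (Fin n) F) : Matrix (Fin n) (Fin n) F) *ᵥ v) i))
  have hΘadd : ∀ u v, Θ (u + v) = Θ u + Θ v := by
    intro u v
    simp only [Θ]
    rw [← Matrix.mulVec_add]
    congr 1
    funext i
    rw [Matrix.mulVec_add, Pi.add_apply, Pi.add_apply, map_add]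
  have hΘsmul : ∀ (c : F) v, Θ (c • v) = φ c • Θ v := by
    intro c v
    simp only [Θ]
    rw [← Matrix.mulVec_smul]
    congr 1
    funext i
    rw [Matrix.mulVec_smul, Pi.smul_apply, Pi.smul_apply, smul_eq_mul, smul_eq_mul, map_mul]
  have hΘiso : ∀ v, v ≠ 0 → Cfsg.hermForm n F q v v = 0 → ∃ s : F, Θ v = s • v := by
    intro v hv hvv
    obtain ⟨a, ha, g, hg, hgx⟩ := tv_su hF v hv hvv
    obtain ⟨x, hx⟩ := (sfm_herm hF).nd v hv
    have hφ0 : (a • fn (sfm_herm hF) v) ≠ 0 := by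
      intro h0
      have := LinearMap.congr_fun h0 x
      rw [LinearMap.smul_apply, fn_apply, LinearMap.zero_apply, smul_eq_mul] at this
      exact mul_ne_zero ha hx this
    obtain ⟨d, hd, hdF⟩ := rat_centre hn (hle hg) hφ0 (v := v) (fun x => by
      rw [hgx, LinearMap.smul_apply, fn_apply, smul_eq_mul])
    refine ⟨φ d⁻¹ * d, ?_⟩
    have h1 : (fun i => φ ((((P⁻¹ : GL (Fin n) F) : Matrix (Fin n) (Fin n) F) *ᵥ v) i)) =
        (φ d⁻¹ * d) • (((P⁻¹ : GL (Fin n) F) : Matrix (Fin n) (Fin n) F) *ᵥ v) := by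
      funext i
      rw [Pi.smul_apply, smul_eq_mul]
      have h2 := (hφm _).1 (hdF i)
      rw [map_mul] at h2
      have h3 : φ d ≠ 0 := fun h => hd ((map_eq_zero φ).1 h)
      rw [map_inv₀]
      rw [mul_assoc, ← h2]
      field_simp
    simp only [Θ]
    rw [h1, Matrix.mulVec_smul, self_inv_mulVec]
  obtain ⟨a, ha⟩ := exists_neg (fq_ne hF) (fq_fq hF)
  obtain ⟨ζ, hζ1, hζ⟩ := exists_norm_one hF
  have ha0 : a ≠ 0 := by
    rintro rfl
    rw [zero_mul] at ha
    exact one_ne_zero (neg_eq_zero.1 ha.symm)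
  have hb : ∀ ζ : F, ζ * fq hF ζ = 1 → (ζ * a) * fq hF (ζ * a) = -1 := by
    intro ζ hζ
    rw [map_mul]
    linear_combination ζ * fq hF ζ * ha - hζ
  -- the action on pairs
  have hpair : ∀ i j : Fin n, i ≠ j → ∀ b : F, b * fq hF b = -1 → ∃ s : F,
      Θ (Pi.single i 1) + φ b • Θ (Pi.single j 1) = s • (Pi.single i 1 + Pi.single j b) := by
    intro i j hij b hb
    have hne : (Pi.single i 1 + Pi.single j b : Fin n → F) ≠ 0 := by
      intro h0
      have := congrFun h0 i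
      rw [Pi.add_apply, Pi.single_eq_same, Pi.single_eq_of_ne hij, add_zero] at this
      exact one_ne_zero this
    obtain ⟨s, hs⟩ := hΘiso _ hne (iso_pair hF hij hb)
    refine ⟨s, ?_⟩
    rw [← hs, hΘadd]
    congr 1
    rw [← hΘsmul, ← Pi.single_smul, smul_eq_mul, mul_one]
  have hμ : ∀ j k : Fin n, k ≠ j → Θ (Pi.single j 1) k = 0 := by
    intro j k hkj
    obtain ⟨i, hi⟩ : ∃ i : Fin n, i ∉ ({j, k} : Finset (Fin n)) := by
      by_contra hcon
      push Not at hcon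
      have h1 : (Finset.univ : Finset (Fin n)) ⊆ {j, k} := fun x _ => hcon x
      have h2 := Finset.card_le_card h1
      rw [Finset.card_univ, Fintype.card_fin] at h2
      have h3 : ({j, k} : Finset (Fin n)).card ≤ 2 := Finset.card_le_two
      omega
    have hij : i ≠ j := fun h => hi (by rw [h]; simp)
    have hik : i ≠ k := fun h => hi (by rw [h]; simp)
    obtain ⟨s, hs⟩ := hpair i j hij a ha
    obtain ⟨s', hs'⟩ := hpair i j hij (ζ * a) (hb ζ hζ)
    have e1 := congrFun hs k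
    have e2 := congrFun hs' k
    simp only [Pi.add_apply, Pi.smul_apply, smul_eq_mul, Pi.single_eq_of_ne (Ne.symm hik), Pi.single_eq_of_ne hkj,
      add_zero, mul_zero] at e1 e2
    have e3 : (φ a - φ (ζ * a)) * Θ (Pi.single j 1) k = 0 := by linear_combination e1 - e2
    refine (mul_eq_zero.1 e3).resolve_left ?_
    intro h4
    have h5 : a = ζ * a := hφi (sub_eq_zero.1 h4)
    have : (1 - ζ) * a = 0 := by linear_combination h5
    rcases mul_eq_zero.1 this with h6 | h6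
    · exact hζ1 (sub_eq_zero.1 h6).symm
    · exact ha0 h6
  let i₀ : Fin n := ⟨0, by omega⟩
  let i₁ : Fin n := ⟨1, by omega⟩
  have h01 : i₀ ≠ i₁ := by
    intro h; exact absurd (congrArg Fin.val h) (by simp [i₀, i₁])
  have hval : ∀ b : F, b * fq hF b = -1 → φ b * Θ (Pi.single i₁ 1) i₁ = Θ (Pi.single i₀ 1) i₀ * b := by
    intro b hb
    obtain ⟨s, hs⟩ := hpair i₀ i₁ h01 b hb
    have e1 := congrFun hs i₀
    have e2 := congrFun hs i₁
    simp only [Pi.add_apply, Pi.smul_apply, smul_eq_mul, Pi.single_eq_of_ne h01, Pi.single_eq_of_ne (Ne.symm h01),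
      Pi.single_eq_same, add_zero, mul_one, zero_add, hμ i₁ i₀ h01, hμ i₀ i₁ (Ne.symm h01), mul_zero] at e1 e2
    rw [e2, e1]
  have hμ0 : Θ (Pi.single i₁ 1) i₁ ≠ 0 := by
    intro h0
    have h1 : Θ (Pi.single i₁ 1) = 0 := by
      funext k
      by_cases hk : k = i₁
      · rw [hk, h0]; rfl
      · rw [hμ i₁ k hk]; rfl
    have h2 : (fun i => φ ((((P⁻¹ : GL (Fin n) F) : Matrix (Fin n) (Fin n) F) *ᵥ (Pi.single i₁ 1 : Fin n → F)) i)) = 0 := by
      apply mulVec_inj (g := P)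
      rw [Matrix.mulVec_zero]
      exact h1
    have h3 : ((P⁻¹ : GL (Fin n) F) : Matrix (Fin n) (Fin n) F) *ᵥ (Pi.single i₁ 1 : Fin n → F) = 0 := by
      funext i
      have := congrFun h2 i
      exact (map_eq_zero φ).1 this
    have h4 : (Pi.single i₁ 1 : Fin n → F) = 0 := by
      apply mulVec_inj (g := P⁻¹)
      rw [Matrix.mulVec_zero, h3]
    have := congrFun h4 i₁
    rw [Pi.single_eq_same] at this
    exact one_ne_zero this
  -- all norm one elements are in the subfield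
  have hall : ∀ ζ : F, ζ * fq hF ζ = 1 → ζ ∈ F₀ := by
    intro ζ hζ
    rw [hφm]
    have e1 := hval a ha
    have e2 := hval (ζ * a) (hb ζ hζ)
    rw [map_mul] at e2
    have hφa : φ a ≠ 0 := fun h => ha0 ((map_eq_zero φ).1 h)
    have e3 : φ a * Θ (Pi.single i₁ 1) i₁ * (φ ζ - ζ) = 0 := by
      linear_combination e2 - ζ * e1
    exact sub_eq_zero.1 ((mul_eq_zero.1 e3).resolve_left (mul_ne_zero hφa hμ0))
  obtain ⟨g, hg⟩ := exists_gen (F := F)
  have hq1 := Cfsg.Agent.H5.Fld.one_lt_q hF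
  have hgq : ((g : F) ^ (q - 1)) * fq hF ((g : F) ^ (q - 1)) = 1 := by
    rw [fq_apply, ← pow_succ', ← pow_mul]
    have e : (q - 1) * (q + 1) = Fintype.card F - 1 := by
      rw [hF]
      zify [hq1.le, Nat.one_le_pow 2 q (by omega)]
      ring
    rw [e, ← hg, ← Units.val_pow_eq_pow_val, pow_orderOf_eq_one, Units.val_one]
  have h5 := hall _ hgq
  rw [subfield_mem_iff] at h5
  have h6 := card_sub_lt hF hF₀
  have hN : 1 < Nat.card F₀ := Finite.one_lt_card
  have h7 : g ^ ((q - 1) * (Nat.card F₀ - 1)) = 1 := by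
    have h8 : (g ^ (q - 1)) ^ Nat.card F₀ = g ^ (q - 1) := by
      apply Units.ext
      rw [Units.val_pow_eq_pow_val, Units.val_pow_eq_pow_val]
      exact h5
    obtain ⟨m, hm⟩ : ∃ m, Nat.card F₀ = m + 1 := ⟨Nat.card F₀ - 1, by omega⟩
    rw [hm, pow_succ] at h8
    rw [hm, Nat.add_sub_cancel, pow_mul]
    exact mul_eq_right.1 h8
  have h9 := orderOf_dvd_of_pow_eq_one h7
  rw [hg, hF] at h9
  have h10 : 0 < (q - 1) * (Nat.card F₀ - 1) := Nat.mul_pos (by omega) (by omega)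
  have h11 := Nat.le_of_dvd h10 h9
  have h12 : (q - 1) * (Nat.card F₀ - 1) ≤ (q - 1) * (q - 1) := Nat.mul_le_mul_left _ (by omega)
  have h13 : (q - 1) * (q - 1) < q ^ 2 - 1 := by
    zify [hq1.le, Nat.one_le_pow 2 q (by omega)]
    have : (1 : ℤ) < q := by exact_mod_cast hq1
    nlinarith
  omega

end Cfsg.Agent.H29.Fm
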