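import Mathlib
import Cfsg.Agent.H29_Un3
import Cfsg.Agent.H29_TrvFrm
import Cfsg.Agent.H15_UGen2

set_option autoImplicit false

/-! hermitian forms and transvection groups -/

namespace Cfsg.Agent.H21.GUt

open Matrix Module Cfsg.Geo Cfsg.Agent.H29.Trv Cfsg.Agent.H29.Fm

variable {F : Type*} [Field F] {n : ℕ} {τ : F ≃+* F} {f : (Fin n → F) → (Fin n → F) → F}

/-- hermitian forms -/
structure UF (τ : F ≃+* F) (f : (Fin n → F) → (Fin n → F) → F) : Prop extends SFm τ 1 f where
  ne : τ ≠ RingEquiv.refl F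

theorem UF.sw (h : UF τ f) (v w : Fin n → F) : τ (f v w) = f w v := by
  rw [h.herm w v, one_mul]

theorem UF.LL (h : UF τ f) : Cfsg.Agent.H29.Trv.LL f where
  add_left := h.add_left
  smul_left := h.smul_left
  add_right := h.toSFm.add_right
  nondeg := h.nd

theorem UF.fix (h : UF τ f) (v : Fin n → F) : τ (f v v) = f v v := h.sw v v

theorem fr_smulU (h : UF τ f) (c : F) (v : Fin n → F) : fr h.LL (c • v) = τ c • fr h.LL v :=
  LinearMap.ext fun x => h.toSFm.smul_right c x v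

theorem UF.tmul (h : UF τ f) (a : F) : τ (a * τ a) = a * τ a := by rw [map_mul, h.inv, mul_comm]

theorem UF.tadd (h : UF τ f) (a : F) : τ (a + τ a) = a + τ a := by rw [map_add, h.inv, add_comm]

theorem UF.moved (h : UF τ f) : ∃ x, τ x ≠ x := by
  by_contra hcon
  push Not at hcon
  exact h.ne (RingEquiv.ext hcon)

/-- nonzero trace zero elements -/
theorem UF.tz (h : UF τ f) : ∃ κ : F, κ ≠ 0 ∧ κ + τ κ = 0 := by
  obtain ⟨x, hx⟩ := h.moved
  by_cases h2 : x - τ x = 0
  · exact absurd (sub_eq_zero.1 h2).symm hx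
  · refine ⟨x - τ x, h2, ?_⟩
    rw [map_sub, h.inv]
    ring

theorem UF.trace_ne (h : UF τ f) : ∃ κ : F, κ + τ κ ≠ 0 := by
  by_contra hcon
  push Not at hcon
  have h1 := hcon 1
  rw [map_one] at h1
  apply h.ne
  ext x
  have h2 := hcon x
  have h3 : τ x = -x := by linear_combination h2
  have h4 : (1 + 1 : F) * x = 0 := by rw [h1, zero_mul]
  rw [h3]
  show -x = x
  linear_combination -h4

theorem UF.tr (h : UF τ f) {a : F} (ha : τ a = a) : ∃ l : F, l + τ l = a := by
  obtain ⟨κ, hκ⟩ := h.trace_ne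
  refine ⟨a / (κ + τ κ) * κ, ?_⟩
  rw [map_mul, map_div₀, h.tadd, ha, ← mul_add, div_mul_cancel₀ _ hκ]

/-- adjusting the norm of a vector -/
theorem UF.adj (h : UF τ f) {x z : Fin n → F} (hx : f x x = 0) (hz : f z x ≠ 0) {l : F} (hl : τ l = l) :
    ∃ a : F, f (z + a • x) (z + a • x) = l := by
  have h1 : τ (l - f z z) = l - f z z := by rw [map_sub, hl, h.fix]
  obtain ⟨b, hb⟩ := h.tr h1
  have hz' : f x z ≠ 0 := by
    rw [← h.sw]
    exact (map_ne_zero τ).2 hz
  refine ⟨b / f x z, ?_⟩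
  rw [h.add_left, h.toSFm.add_right, h.toSFm.add_right, h.smul_left, h.smul_left, h.toSFm.smul_right,
    h.toSFm.smul_right, hx, map_div₀, h.sw]
  rw [div_mul_cancel₀ _ hz, div_mul_cancel₀ _ hz']
  linear_combination hb

/-- the transvection is an isometry -/
theorem UF.isomT (h : UF τ f) {v : Fin n → F} (hv : f v v = 0) {c : F} (hc : c + τ c = 0) (x y : Fin n → F) :
    f (x + (c * f x v) • v) (y + (c * f y v) • v) = f x y := by
  rw [h.add_left, h.toSFm.add_right, h.toSFm.add_right, h.smul_left, h.smul_left, h.toSFm.smul_right,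
    h.toSFm.smul_right, hv, map_mul, h.sw]
  linear_combination f x v * f v y * hc

/-- `M` contains the full transvection group at `v` -/
def FT (h : UF τ f) (M : Subgroup (GL (Fin n) F)) (v : Fin n → F) : Prop :=
  ∀ c : F, c + τ c = 0 → T M v (c • fr h.LL v)

variable {M N : Subgroup (GL (Fin n) F)}

theorem FT.iso {h : UF τ f} {v : Fin n → F} (hv : FT h M v) : f v v = 0 := by
  obtain ⟨κ, hκ, hκ2⟩ := h.tz
  have h1 := (hv κ hκ2).1
  rw [LinearMap.smul_apply, fr_apply, smul_eq_mul] at h1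
  exact (mul_eq_zero.1 h1).resolve_left hκ

theorem FT.mono {h : UF τ f} {v : Fin n → F} (hv : FT h M v) (hMN : M ≤ N) : FT h N v :=
  fun c hc => (hv c hc).mono hMN

theorem FT.smul {h : UF τ f} {v : Fin n → F} (hv : FT h M v) (a : F) : FT h M (a • v) := by
  intro c hc
  rw [fr_smulU h, T_smul_iff, smul_smul, smul_smul]
  apply hv
  rw [map_mul, map_mul, h.inv]
  linear_combination (a * τ a) * hc

theorem FT.of_smul {h : UF τ f} {v : Fin n → F} {a : F} (ha : a ≠ 0) (hv : FT h M (a • v)) : FT h M v := by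
  have h1 := hv.smul a⁻¹
  rwa [smul_smul, inv_mul_cancel₀ ha, one_smul] at h1

theorem FT.conj {h : UF τ f} {v : Fin n → F} (hv : FT h M v) {g : GL (Fin n) F} (hg : g ∈ M)
    (hiso : ∀ x y, f ((g : Matrix (Fin n) (Fin n) F) *ᵥ x) ((g : Matrix (Fin n) (Fin n) F) *ᵥ y) = f x y) :
    FT h M ((g : Matrix (Fin n) (Fin n) F) *ᵥ v) := by
  intro c hc
  have h1 := hv c hc
  have h2 : T M v (fr h.LL (τ c • v)) := by
    rwa [fr_smulU h, h.inv]
  have h3 := h2.conj_isom h.LL hg hiso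
  rw [mulVec_smul, fr_smulU h, h.inv] at h3
  exact h3

/-- moving along a line -/
theorem FT.line {h : UF τ f} {u v : Fin n → F} (hu : FT h M u) (hv : FT h M v) (huv : f u v ≠ 0) {a : F}
    (ha : f (u + a • v) (u + a • v) = 0) : FT h M (u + a • v) := by
  have hvu : f v u ≠ 0 := by
    rw [← h.sw]
    exact (map_ne_zero τ).2 huv
  have h1 : a * f v u + τ a * f u v = 0 := by
    rw [h.add_left, h.toSFm.add_right, h.toSFm.add_right, h.smul_left, h.smul_left, h.toSFm.smul_right,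
      h.toSFm.smul_right, hu.iso, hv.iso] at ha
    linear_combination ha
  have h2 : a / f u v + τ (a / f u v) = 0 := by
    rw [map_div₀, h.sw, div_add_div _ _ huv hvu]
    rw [div_eq_zero_iff]
    left
    linear_combination h1
  obtain ⟨-, g, hg, hgx⟩ := hv _ h2
  have hgx' : ∀ x, (g : Matrix (Fin n) (Fin n) F) *ᵥ x = x + (a / f u v * f x v) • v := fun x => by
    rw [hgx]; rfl
  have h3 := hu.conj hg (fun x y => by rw [hgx', hgx', h.isomT hv.iso h2])
  rw [hgx', div_mul_cancel₀ _ huv] at h3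
  exact h3

/-- the span of isotropic vectors -/
theorem UF.span_iso (h : UF τ f) {U W : Submodule F (Fin n → F)} {x z₀ : Fin n → F} (hx : x ∈ U) (hxx : f x x = 0)
    (hz : z₀ ∈ U) (hzx : f z₀ x ≠ 0) (hW : ∀ v ∈ U, f v v = 0 → v ∈ W) : U ≤ W := by
  have hxW := hW x hx hxx
  have h1 : ∀ z ∈ U, f z x ≠ 0 → z ∈ W := by
    intro z hz hne
    obtain ⟨a, ha⟩ := h.adj hxx hne (l := 0) (map_zero τ)
    have h2 := hW _ (U.add_mem hz (U.smul_mem a hx)) ha
    exact (W.add_mem_iff_left (W.smul_mem a hxW)).1 h2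
  intro z hzU
  by_cases h0 : f z x = 0
  · have h2 := h1 (z + z₀) (U.add_mem hzU hz) (by rw [h.add_left, h0, zero_add]; exact hzx)
    exact (W.add_mem_iff_left (h1 z₀ hz hzx)).1 h2
  · exact h1 z hzU h0

/-- isotropic vectors in subspaces of dimension two -/
theorem UF.exists_iso [Fintype F] (h : UF τ f) {U : Submodule F (Fin n → F)} (hU : 2 ≤ finrank F U) :
    ∃ v ∈ U, v ≠ 0 ∧ f v v = 0 := by
  by_contra hcon
  push Not at hcon
  obtain ⟨x, hx, hx0⟩ : ∃ x ∈ U, x ≠ 0 := by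
    apply U.ne_bot_iff.1
    rintro rfl
    simp at hU
  obtain ⟨y, hy, hyx⟩ : ∃ y ∈ U, y ∉ Submodule.span F {x} := by
    by_contra hc
    push Not at hc
    have h1 : U ≤ Submodule.span F {x} := fun y hy => hc y hy
    have h2 := Submodule.finrank_mono h1
    rw [finrank_span_singleton hx0] at h2
    omega
  have hxx := hcon x hx hx0
  obtain ⟨y', hy', hy'0, hxy⟩ : ∃ y' ∈ U, y' ≠ 0 ∧ f y' x = 0 := by
    refine ⟨y - (f y x / f x x) • x, U.sub_mem hy (U.smul_mem _ hx), ?_, ?_⟩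
    · intro h0
      rw [sub_eq_zero] at h0
      exact hyx (Submodule.mem_span_singleton.2 ⟨_, h0.symm⟩)
    · rw [h.toSFm.sub_left, h.smul_left, div_mul_cancel₀ _ hxx, sub_self]
  have hyy := hcon y' hy' hy'0
  obtain ⟨d, hd, hdd⟩ := norm_surj h.ne h.inv (c := - f y' y' / f x x) (div_ne_zero (neg_ne_zero.2 hyy) hxx) (by
    rw [map_div₀, map_neg, h.fix, h.fix])
  have h1 := hcon (y' + d • x) (U.add_mem hy' (U.smul_mem d hx)) (by
    intro h0
    have h2 : f (y' + d • x) y' = 0 := by rw [h0, h.toSFm.zero_left]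
    rw [h.add_left, h.smul_left, ← h.sw y' x, hxy, map_zero, mul_zero, add_zero] at h2
    exact hyy h2)
  apply h1
  rw [h.add_left, h.toSFm.add_right, h.toSFm.add_right, h.smul_left, h.smul_left, h.toSFm.smul_right,
    h.toSFm.smul_right, hxy, ← h.sw y' x, hxy, map_zero]
  have h3 : d * τ d * f x x = - f y' y' := by
    rw [hdd, div_mul_cancel₀ _ hxx]
  linear_combination h3

end Cfsg.Agent.H21.GUt
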