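import Mathlib
import Cfsg.Agent.GUt1

set_option autoImplicit false

/-! hermitian forms and transvection groups, II: the standard form -/

namespace Cfsg.Agent.H21.GUt

open Matrix Module Cfsg.Geo Cfsg.Agent.H29.Trv Cfsg.Agent.H29.Fm

variable {F : Type*} [Field F] {n : ℕ} {τ : F ≃+* F} {f : (Fin n → F) → (Fin n → F) → F}

theorem uf_herm [Fintype F] {q : ℕ} (hF : Fintype.card F = q ^ 2) : UF (fq hF) (Cfsg.hermForm n F q) where
  toSFm := sfm_herm hF
  ne := fq_ne hF

/-- the isometry group -/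
theorem mem_GU {q : ℕ} (g : GL (Fin n) F) : g ∈ Cfsg.GU n F q ↔ ∀ x y,
    Cfsg.hermForm n F q ((g : Matrix (Fin n) (Fin n) F) *ᵥ x) ((g : Matrix (Fin n) (Fin n) F) *ᵥ y) =
      Cfsg.hermForm n F q x y := Iff.rfl

theorem T_GU {K : Subgroup (GL (Fin n) F)} (h : UF τ f)
    (hK : ∀ g : GL (Fin n) F, (∀ x y, f ((g : Matrix (Fin n) (Fin n) F) *ᵥ x)
      ((g : Matrix (Fin n) (Fin n) F) *ᵥ y) = f x y) → g ∈ K)
    {v : Fin n → F} (hv : f v v = 0) : FT h (K ⊓ specialLinear (Fin n) F) v := by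
  intro c hc
  have h0 : (c • fr h.LL v) v = 0 := by rw [LinearMap.smul_apply, fr_apply, hv, smul_zero]
  refine T_inf ((trv_mem_iff h0).1 (hK _ ?_)) (T_SL v _ h0)
  intro x y
  rw [trv_apply, trv_apply]
  exact h.isomT hv hc x y

theorem FT_SU [Fintype F] {q : ℕ} (hF : Fintype.card F = q ^ 2) {v : Fin n → F}
    (hv : Cfsg.hermForm n F q v v = 0) : FT (uf_herm hF) (SUg n F q) v :=
  T_GU (K := Cfsg.GU n F q) (uf_herm hF) (fun g hg => hg) hv

/-- transvections in stabilisers -/
theorem FT.stab_perp {h : UF τ f} {K : Subgroup (GL (Fin n) F)} {v : Fin n → F} (hv : FT h K v)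
    {W : Submodule F (Fin n → F)} (hW : ∀ w ∈ W, f w v = 0) : FT h (subspaceStabilizer W ⊓ K) v := by
  intro c hc
  have h0 := (hv c hc).1
  exact T_inf (T_stab_of_right W h0 (fun w hw => by
    rw [LinearMap.smul_apply, fr_apply, hW w hw, smul_zero])) (hv c hc)

theorem FT.stab_mem {h : UF τ f} {K : Subgroup (GL (Fin n) F)} {v : Fin n → F} (hv : FT h K v)
    {W : Submodule F (Fin n → F)} (hW : v ∈ W) : FT h (subspaceStabilizer W ⊓ K) v := by
  intro c hc
  have h0 := (hv c hc).1
  exact T_inf (T_stab_of_left W hW h0) (hv c hc)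

/-- If all isotropic vectors are full then `M` contains the special unitary group. -/
theorem SU_le_of_FT [Fintype F] {q : ℕ} (hF : Fintype.card F = q ^ 2) (hn : 3 ≤ n) (h32 : ¬ (n = 3 ∧ q = 2))
    {M : Subgroup (GL (Fin n) F)}
    (h : ∀ v, Cfsg.hermForm n F q v v = 0 → FT (uf_herm hF) M v) : SUg n F q ≤ M := by
  classical
  have h1 := Cfsg.Agent.H15.UGen.su_gen hF n hn h32
  let ρ : Cfsg.SU n F q →* GL (Fin n) F := (Matrix.SpecialLinearGroup.toGL).comp (Cfsg.SU n F q).subtype
  have key : ∀ A, ρ A ∈ M := by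
    intro A
    have hA : A ∈ (M.comap ρ) := by
      have h2 : (⊤ : Subgroup (Cfsg.SU n F q)) ≤ M.comap ρ := by
        rw [← h1, Subgroup.closure_le]
        rintro B ⟨v, c, hv, hB⟩
        show ρ B ∈ M
        by_cases hv0 : v = 0
        · have : ρ B = 1 := by
            apply GL_ext
            intro x
            show ((B : Matrix.SpecialLinearGroup (Fin n) F) : Matrix (Fin n) (Fin n) F) *ᵥ x = _
            rw [hB, Cfsg.Agent.H5.Unit.T_mulVec, hv0]
            simp
          rw [this]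
          exact M.one_mem
        · have hiso : ∀ x y : Fin n → F, Cfsg.hermForm n F q ((Cfsg.unitaryTransvection n q v c).mulVec x)
              ((Cfsg.unitaryTransvection n q v c).mulVec y) = Cfsg.hermForm n F q x y := by
            rw [← hB]
            exact fun x y => B.2 x y
          have hc := (Cfsg.Agent.H5.Unit.T_isometry_iff hF v hv0 hv c).1 hiso
          obtain ⟨-, t, ht, htx⟩ := h v hv c (by rw [fq_apply]; exact hc)
          have : ρ B = t := by
            apply GL_ext
            intro x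
            rw [htx]
            show ((B : Matrix.SpecialLinearGroup (Fin n) F) : Matrix (Fin n) (Fin n) F) *ᵥ x = _
            rw [hB, Cfsg.Agent.H5.Unit.T_mulVec]
            rfl
          rw [this]
          exact ht
      exact h2 (Subgroup.mem_top A)
    exact hA
  rintro g ⟨hg1, hg2⟩
  have hdet : (g : Matrix (Fin n) (Fin n) F).det = 1 := (mem_SL_iff g).1 hg2
  have h3 : g = ρ ⟨⟨g, hdet⟩, hg1⟩ := Units.ext rfl
  rw [h3]
  exact key _

/-- nilpotent implies determinant one -/
theorem det_one_add_nil {N : Matrix (Fin n) (Fin n) F} (hN : IsNilpotent N) : (1 + N).det = 1 := by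
  have h1 : IsNilpotent (-N) := hN.neg
  have h2 : (-N).charpoly = Polynomial.X ^ n := by
    have := Matrix.isNilpotent_charpoly_sub_pow_of_isNilpotent h1
    rw [Fintype.card_fin] at this
    exact sub_eq_zero.1 this.eq_zero
  have h3 := Matrix.eval_charpoly (-N) 1
  rw [h2] at h3
  rw [Polynomial.eval_pow, Polynomial.eval_X, one_pow] at h3
  rw [h3]
  congr 1
  ext i j
  simp [Matrix.scalar_apply]

/-- Siegel transformations -/
theorem siegel [Finite F] (h : UF τ f) {w z : Fin n → F} (hw : f w w = 0) (hwz : f z w = 0) {b : F} (hb : b + τ b = f z z) :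
    ∃ g : GL (Fin n) F, g ∈ specialLinear (Fin n) F ∧
      (∀ x, (g : Matrix (Fin n) (Fin n) F) *ᵥ x = x + f x w • z - f x z • w - (b * f x w) • w) ∧
      ∀ x y, f ((g : Matrix (Fin n) (Fin n) F) *ᵥ x) ((g : Matrix (Fin n) (Fin n) F) *ᵥ y) = f x y := by
  have hzw : f w z = 0 := by rw [← h.sw, hwz, map_zero]
  let A : (Fin n → F) →ₗ[F] (Fin n → F) := LinearMap.smulRight (fr h.LL w) z - LinearMap.smulRight (fr h.LL z) w
    - LinearMap.smulRight (b • fr h.LL w) w
  have hA : ∀ x, A x = f x w • z - f x z • w - (b * f x w) • w := fun x => rfl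
  have hA3 : ∀ x, A (A (A x)) = 0 := by
    intro x
    have e1 : ∀ p, f (A p) w = 0 := by
      intro p
      rw [hA, h.toSFm.sub_left, h.toSFm.sub_left, h.smul_left, h.smul_left, h.smul_left, hw, hwz]
      ring
    have e2 : f (A (A x)) z = 0 := by
      rw [hA (A x), e1, h.toSFm.sub_left, h.toSFm.sub_left, h.smul_left, h.smul_left, h.smul_left, hzw]
      ring
    rw [hA (A (A x)), e1, e2]
    simp
  let N := LinearMap.toMatrix' A
  have hN : IsNilpotent N := by
    refine ⟨3, ?_⟩
    apply ext_mulVec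
    intro x
    rw [pow_succ, pow_succ, pow_one, ← mulVec_mulVec, ← mulVec_mulVec]
    show LinearMap.toMatrix' A *ᵥ (LinearMap.toMatrix' A *ᵥ (LinearMap.toMatrix' A *ᵥ x)) = _
    rw [LinearMap.toMatrix'_mulVec, LinearMap.toMatrix'_mulVec, LinearMap.toMatrix'_mulVec, hA3, zero_mulVec]
  have hdet := det_one_add_nil hN
  let g : GL (Fin n) F := Matrix.GeneralLinearGroup.mkOfDetNeZero (1 + N) (by rw [hdet]; exact one_ne_zero)
  have hg : ∀ x, (g : Matrix (Fin n) (Fin n) F) *ᵥ x = x + f x w • z - f x z • w - (b * f x w) • w := by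
    intro x
    show (1 + LinearMap.toMatrix' A) *ᵥ x = _
    rw [add_mulVec, one_mulVec, LinearMap.toMatrix'_mulVec, hA]
    abel
  refine ⟨g, (mem_SL_iff g).2 hdet, hg, ?_⟩
  intro x y
  rw [hg, hg]
  simp only [h.toSFm.sub_left, h.toSFm.sub_right, h.add_left, h.toSFm.add_right, h.smul_left,
    h.toSFm.smul_right, hw, hwz, hzw, map_mul, h.sw]
  linear_combination (-(f x w * f w y)) * hb

/-- a set mapped into itself by an element of `GL` is mapped onto itself -/
theorem surjOn_of_mapsTo [Finite F] {g : GL (Fin n) F} {S : Set (Fin n → F)}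
    (hS : ∀ x ∈ S, (g : Matrix (Fin n) (Fin n) F) *ᵥ x ∈ S) {y : Fin n → F} (hy : y ∈ S) :
    ∃ x ∈ S, (g : Matrix (Fin n) (Fin n) F) *ᵥ x = y := by
  have h1 : (fun x => (g : Matrix (Fin n) (Fin n) F) *ᵥ x) '' S ⊆ S := by
    rintro _ ⟨x, hx, rfl⟩
    exact hS x hx
  have h2 := Set.eq_of_subset_of_ncard_le h1 (by
    rw [Set.ncard_image_of_injective _ (fun x y hxy => mulVec_inj hxy)]) (Set.toFinite S)
  rw [← h2] at hy
  exact hy

end Cfsg.Agent.H21.GUt
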