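import Mathlib

set_option autoImplicit false

/-! linear groups over extension fields of prime degree: generalities and transitivity -/

namespace Cfsg.Agent.H21.GUx

open Module

variable {F K V : Type*} [Field F] [Field K] [Algebra F K] [AddCommGroup V] [Module F V] [Module K V] [IsScalarTower F K V]

/-- the reflections and transvections over the large field -/
def Gen (K : Type*) [Field K] [Module K V] (M : Subgroup (V ≃ₗ[F] V)) : Prop :=
  ∀ (φ : V →ₗ[K] K) (w : V) (y : K), y ≠ 0 → 1 + φ w = y ^ (Nat.card F - 1) → ∃ g ∈ M, ∀ x, g x = x + φ x • w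

theorem Gen.tr {M : Subgroup (V ≃ₗ[F] V)} (hG : Gen K M) {φ : V →ₗ[K] K} {w : V} (h : φ w = 0) :
    ∃ g ∈ M, ∀ x, g x = x + φ x • w := hG φ w 1 one_ne_zero (by rw [h, one_pow, add_zero])

theorem ia (g : V ≃ₗ[F] V) (x : V) : g⁻¹ (g x) = x := g.symm_apply_apply x

theorem ai (g : V ≃ₗ[F] V) (x : V) : g (g⁻¹ x) = x := g.apply_symm_apply x

theorem exists_phi {P : Submodule K V} {x : V} (hx : x ∉ P) : ∃ φ : V →ₗ[K] K, φ x = 1 ∧ ∀ p ∈ P, φ p = 0 := by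
  obtain ⟨f, hf, hP⟩ := Submodule.exists_le_ker_of_notMem hx
  refine ⟨(f x)⁻¹ • f, ?_, fun p hp => ?_⟩
  · rw [LinearMap.smul_apply, smul_eq_mul, inv_mul_cancel₀ hf]
  · rw [LinearMap.smul_apply, LinearMap.mem_ker.1 (hP hp), smul_zero]

/-- members of the family -/
def Mb (K : Type*) [Field K] [Module K V] (M : Subgroup (V ≃ₗ[F] V)) (N : Submodule F V) : Prop :=
  ∃ g ∈ M, ∃ v, v ≠ 0 ∧ ∀ x, x ∈ N ↔ ∃ k : K, g (k • v) = x

variable {M : Subgroup (V ≃ₗ[F] V)} {N Z : Submodule F V}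

theorem Mb.map (h : Mb K M N) {g : V ≃ₗ[F] V} (hg : g ∈ M) : Mb K M (N.map (g : V →ₗ[F] V)) := by
  obtain ⟨g₁, hg₁, v, hv, hN⟩ := h
  refine ⟨g * g₁, M.mul_mem hg hg₁, v, hv, fun x => ?_⟩
  rw [Submodule.mem_map]
  constructor
  · rintro ⟨y, hy, rfl⟩
    obtain ⟨k, rfl⟩ := (hN y).1 hy
    exact ⟨k, rfl⟩
  · rintro ⟨k, rfl⟩
    exact ⟨g₁ (k • v), (hN _).2 ⟨k, rfl⟩, rfl⟩

theorem Mb.finrank [FiniteDimensional F K] (h : Mb K M N) : finrank F N = finrank F K := by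
  obtain ⟨g, hg, v, hv, hN⟩ := h
  let L : K →ₗ[F] V := (g : V →ₗ[F] V).comp (LinearMap.toSpanSingleton K V v |>.restrictScalars F)
  have hL : ∀ k, L k = g (k • v) := fun k => rfl
  have hi : Function.Injective L := by
    intro a b hab
    rw [hL, hL] at hab
    have h1 := g.injective hab
    exact smul_left_injective K hv h1
  have hr : LinearMap.range L = N := by
    ext x
    rw [LinearMap.mem_range, hN]
    rfl
  rw [← hr]
  exact LinearMap.finrank_range_of_inj hi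

theorem Mb.eq_of_le [FiniteDimensional F K] [FiniteDimensional F V] {N' : Submodule F V} (h : Mb K M N) (h' : Mb K M N')
    (hle : N ≤ N') : N = N' := Submodule.eq_of_le_of_finrank_eq hle (h.finrank.trans h'.finrank.symm)

/-- translations along a member -/
theorem Mb.trans (hG : Gen K M) (h : Mb K M N) {x w : V} (hx : x ∉ N) (hw : w ∈ N) :
    ∃ g ∈ M, (∀ n ∈ N, g n = n) ∧ g x = x + w := by
  obtain ⟨g, hg, v, hv, hN⟩ := h
  obtain ⟨k, rfl⟩ := (hN w).1 hw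
  have hx' : g⁻¹ x ∉ Submodule.span K {v} := by
    intro hm
    obtain ⟨c, hc⟩ := Submodule.mem_span_singleton.1 hm
    apply hx
    rw [hN]
    exact ⟨c, by rw [hc, ai]⟩
  obtain ⟨φ, hφ, hφ'⟩ := exists_phi hx'
  have hφv : φ v = 0 := hφ' v (Submodule.mem_span_singleton_self v)
  obtain ⟨s, hs, hsx⟩ := hG.tr (φ := φ) (w := k • v) (by rw [map_smul, hφv, smul_zero])
  refine ⟨g * s * g⁻¹, M.mul_mem (M.mul_mem hg hs) (M.inv_mem hg), fun n hn => ?_, ?_⟩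
  · obtain ⟨c, rfl⟩ := (hN n).1 hn
    show g (s (g⁻¹ (g (c • v)))) = _
    rw [ia, hsx, map_smul, hφv, smul_zero, zero_smul, add_zero]
  · show g (s (g⁻¹ x)) = _
    rw [hsx, hφ, one_smul, map_add, ai]

/-- K-linear transitivity -/
theorem exists_move (hG : Gen K M) (h2 : ∀ v : V, ∃ x, x ∉ Submodule.span K {v}) {u v : V} (hu : u ≠ 0) (hv : v ≠ 0) :
    ∃ g ∈ M, (∀ (k : K) x, g (k • x) = k • g x) ∧ g u = v := by
  have key : ∀ u v : V, u ∉ Submodule.span K {v - u} → ∃ g ∈ M, (∀ (k : K) x, g (k • x) = k • g x) ∧ g u = v := by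
    intro u v h
    obtain ⟨φ, hφ, hφ'⟩ := exists_phi h
    obtain ⟨g, hg, hgx⟩ := hG.tr (φ := φ) (w := v - u) (hφ' _ (Submodule.mem_span_singleton_self _))
    refine ⟨g, hg, fun k x => ?_, ?_⟩
    · rw [hgx, hgx, map_smul, smul_add, smul_eq_mul, smul_smul]
    · rw [hgx, hφ, one_smul, add_sub_cancel]
  by_cases h : u ∉ Submodule.span K {v - u}
  · exact key u v h
  rw [not_not] at h
  obtain ⟨c, hc⟩ := Submodule.mem_span_singleton.1 h
  obtain ⟨x, hx⟩ := h2 u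
  have hc0 : c ≠ 0 := by
    rintro rfl
    rw [zero_smul] at hc
    exact hu hc.symm
  have hvu : v = (c⁻¹ + 1) • u := by
    have : v - u = c⁻¹ • u := (inv_smul_smul₀ hc0 (v - u)).symm.trans (congrArg (c⁻¹ • ·) hc)
    rw [add_smul, one_smul, ← this, sub_add_cancel]
  have h1 : u ∉ Submodule.span K {x - u} := by
    intro hm
    obtain ⟨a, ha⟩ := Submodule.mem_span_singleton.1 hm
    have ha0 : a ≠ 0 := by
      rintro rfl
      rw [zero_smul] at ha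
      exact hu ha.symm
    apply hx
    refine Submodule.mem_span_singleton.2 ⟨a⁻¹ + 1, ?_⟩
    rw [add_smul, one_smul]
    nth_rewrite 1 [← ha]
    rw [smul_smul, inv_mul_cancel₀ ha0, one_smul, sub_add_cancel]
  have h3 : x ∉ Submodule.span K {v - x} := by
    intro hm
    obtain ⟨a, ha⟩ := Submodule.mem_span_singleton.1 hm
    by_cases h0 : 1 + a = 0
    · have : a = -1 := by linear_combination h0
      rw [this, neg_smul, one_smul, neg_sub, sub_eq_self] at ha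
      exact hv ha
    apply hx
    refine Submodule.mem_span_singleton.2 ⟨(1 + a)⁻¹ * a * (c⁻¹ + 1), ?_⟩
    have e : (1 + a) • x = a • v := by
      rw [add_smul, one_smul]
      nth_rewrite 1 [← ha]
      module
    rw [← smul_smul, ← hvu, ← smul_smul, ← e, smul_smul, inv_mul_cancel₀ h0, one_smul]
  obtain ⟨g₁, hg₁, hl₁, e₁⟩ := key u x h1
  obtain ⟨g₂, hg₂, hl₂, e₂⟩ := key x v h3
  refine ⟨g₂ * g₁, M.mul_mem hg₂ hg₁, fun k y => ?_, ?_⟩
  · show g₂ (g₁ (k • y)) = k • g₂ (g₁ y)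
    rw [hl₁, hl₂]
  · show g₂ (g₁ u) = v
    rw [e₁, e₂]

/-- the orbit relation of the pointwise stabiliser -/
def Rel (M : Subgroup (V ≃ₗ[F] V)) (Z : Submodule F V) (x y : V) : Prop := ∃ g ∈ M, (∀ z ∈ Z, g z = z) ∧ g x = y

theorem Rel.symm {x y : V} (h : Rel M Z x y) : Rel M Z y x := by
  obtain ⟨g, hg, hZ, rfl⟩ := h
  refine ⟨g⁻¹, M.inv_mem hg, fun z hz => ?_, ia g x⟩
  nth_rewrite 1 [← hZ z hz]
  exact ia g z

theorem Rel.trans {x y z : V} (h : Rel M Z x y) (h' : Rel M Z y z) : Rel M Z x z := by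
  obtain ⟨g, hg, hZ, rfl⟩ := h
  obtain ⟨g', hg', hZ', rfl⟩ := h'
  exact ⟨g' * g, M.mul_mem hg' hg, fun z hz => by show g' (g z) = z; rw [hZ z hz, hZ' z hz], rfl⟩

theorem Mb.rel (hG : Gen K M) (h : Mb K M N) (hZ : Z ≤ N) {x w : V} (hx : x ∉ N) (hw : w ∈ N) : Rel M Z x (x + w) := by
  obtain ⟨g, hg, h1, h2⟩ := h.trans hG hx hw
  exact ⟨g, hg, fun z hz => h1 z (hZ hz), h2⟩

/-- good translations -/
def TT (M : Subgroup (V ≃ₗ[F] V)) (Z : Submodule F V) (t : V) : Prop := ∀ x, x ∉ Z → x + t ∉ Z → Rel M Z x (x + t)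

theorem TT.stab {g : V ≃ₗ[F] V} (hg : g ∈ M) (hZ : ∀ z ∈ Z, g z = z) {t : V} (ht : TT M Z t) : TT M Z (g t) := by
  have hZ' : ∀ z ∈ Z, g⁻¹ z = z := by
    intro z hz
    nth_rewrite 1 [← hZ z hz]
    exact ia g z
  intro x hx hxt
  have h1 : g⁻¹ x ∉ Z := by
    intro hm
    apply hx
    have := hZ _ hm
    rw [ai] at this
    rw [this]; exact hm
  have e1 : g⁻¹ (x + g t) = g⁻¹ x + t := by rw [map_add, ia]
  have h2 : g⁻¹ x + t ∉ Z := by
    rw [← e1]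
    intro hm
    apply hxt
    have := hZ _ hm
    rw [ai] at this
    rw [this]; exact hm
  have r1 : Rel M Z x (g⁻¹ x) := ⟨g⁻¹, M.inv_mem hg, hZ', rfl⟩
  have r2 : Rel M Z (g⁻¹ x + t) (x + g t) := ⟨g, hg, hZ, by rw [map_add, ai]⟩
  exact (r1.trans (ht _ h1 h2)).trans r2

section
variable {N₁ N₂ : Submodule F V}

theorem TT.of_left (hG : Gen K M) (h₁ : Mb K M N₁) (h₂ : Mb K M N₂) (h21 : ¬ N₂ ≤ N₁) {t : V} (ht : t ∈ N₁) :
    TT M (N₁ ⊓ N₂) t := by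
  intro x hx hxt
  by_cases h1 : x ∈ N₁
  · have hx2 : x ∉ N₂ := fun h => hx ⟨h1, h⟩
    have hxt2 : x + t ∉ N₂ := fun h => hxt ⟨N₁.add_mem h1 ht, h⟩
    obtain ⟨w, hw2, hw1⟩ := SetLike.not_le_iff_exists.1 h21
    have r1 : Rel M (N₁ ⊓ N₂) x (x + w) := h₂.rel hG inf_le_right hx2 hw2
    have r2 : Rel M (N₁ ⊓ N₂) (x + w) (x + w + t) := h₁.rel hG inf_le_left (fun h => hw1 ((N₁.add_mem_iff_right h1).1 h)) ht
    have r3 : Rel M (N₁ ⊓ N₂) (x + t) (x + t + w) := h₂.rel hG inf_le_right hxt2 hw2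
    rw [add_right_comm] at r2
    exact (r1.trans r2).trans r3.symm
  · exact h₁.rel hG inf_le_left h1 ht

theorem TT.add (hG : Gen K M) (h₁ : Mb K M N₁) (h₂ : Mb K M N₂) (h12 : ¬ N₁ ≤ N₂) (h21 : ¬ N₂ ≤ N₁) {t t' : V}
    (ht : TT M (N₁ ⊓ N₂) t) (ht' : TT M (N₁ ⊓ N₂) t') : TT M (N₁ ⊓ N₂) (t + t') := by
  intro x hx hxy
  rw [← add_assoc] at hxy ⊢
  by_cases h1 : x + t ∈ N₁ ⊓ N₂
  swap
  · exact (ht x hx h1).trans (ht' _ h1 hxy)
  have key : ∀ N N' : Submodule F V, Mb K M N → N ⊓ N' = N₁ ⊓ N₂ → ¬ N ≤ N' → x ∉ N → x + t + t' ∉ N →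
      Rel M (N₁ ⊓ N₂) x (x + t + t') := by
    intro N N' hN hZ hle hxN hyN
    have hZN : N₁ ⊓ N₂ ≤ N := hZ ▸ inf_le_left
    have hZN' : N₁ ⊓ N₂ ≤ N' := hZ ▸ inf_le_right
    obtain ⟨w, hw, hw'⟩ := SetLike.not_le_iff_exists.1 hle
    have r1 : Rel M (N₁ ⊓ N₂) x (x + w) := hN.rel hG hZN hxN hw
    have a1 : x + w ∉ N₁ ⊓ N₂ := fun h => hxN ((N.add_mem_iff_left hw).1 (hZN h))
    have a2 : x + w + t ∉ N₁ ⊓ N₂ := by
      rw [add_right_comm]
      intro h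
      exact hw' ((N'.add_mem_iff_right (hZN' h1)).1 (hZN' h))
    have a3 : x + w + t + t' ∉ N₁ ⊓ N₂ := by
      have e : x + w + t + t' = (x + t + t') + w := by abel
      rw [e]
      exact fun h => hyN ((N.add_mem_iff_left hw).1 (hZN h))
    have r2 := ht _ a1 a2
    have r3 := ht' _ a2 a3
    have r4 : Rel M (N₁ ⊓ N₂) (x + t + t') (x + t + t' + w) := hN.rel hG hZN hyN hw
    have e : x + w + t + t' = (x + t + t') + w := by abel
    rw [e] at r3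
    exact ((r1.trans r2).trans r3).trans r4.symm
  have key2 : ∀ N N' : Submodule F V, Mb K M N → Mb K M N' → N ⊓ N' = N₁ ⊓ N₂ → x ∈ N → x + t + t' ∈ N' →
      Rel M (N₁ ⊓ N₂) x (x + t + t') := by
    intro N N' hN hN' hZ hxN hyN
    have hZN : N₁ ⊓ N₂ ≤ N := hZ ▸ inf_le_left
    have hZN' : N₁ ⊓ N₂ ≤ N' := hZ ▸ inf_le_right
    have b1 : x ∉ N' := fun h => hx (hZ ▸ ⟨hxN, h⟩)
    have b2 : x + t + t' ∉ N := fun h => hxy (hZ ▸ ⟨h, hyN⟩)
    have r1 : Rel M (N₁ ⊓ N₂) x (x + (x + t + t')) := hN'.rel hG hZN' b1 hyN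
    have r2 : Rel M (N₁ ⊓ N₂) (x + t + t') (x + t + t' + x) := hN.rel hG hZN b2 hxN
    rw [add_comm] at r1
    exact r1.trans r2.symm
  by_cases c1 : x ∈ N₁
  · have c2 : x ∉ N₂ := fun h => hx ⟨c1, h⟩
    by_cases c3 : x + t + t' ∈ N₂
    · exact key2 N₁ N₂ h₁ h₂ rfl c1 c3
    · exact key N₂ N₁ h₂ (inf_comm _ _) h21 c2 c3
  · by_cases c3 : x + t + t' ∈ N₁
    · by_cases c4 : x ∈ N₂
      · exact key2 N₂ N₁ h₂ h₁ (inf_comm _ _) c4 c3
      · have c5 : x + t + t' ∉ N₂ := fun h => hxy ⟨c3, h⟩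
        exact key N₂ N₁ h₂ (inf_comm _ _) h21 c4 c5
    · exact key N₁ N₂ h₁ rfl h12 c1 c3

end

end Cfsg.Agent.H21.GUx
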