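import Mathlib
import Cfsg.Agent.GUx1

set_option autoImplicit false

/-! linear groups over extension fields of prime degree: transitivity off an intersection -/

namespace Cfsg.Agent.H21.GUx

open Module

variable {F K V : Type*} [Field F] [Field K] [Algebra F K] [AddCommGroup V] [Module F V] [Module K V] [IsScalarTower F K V]
variable {M : Subgroup (V ≃ₗ[F] V)} {N Z : Submodule F V}

theorem exists_irr_pow [Finite F] [FiniteDimensional F K] (h2 : 2 ≤ finrank F K) :
    ∃ y : K, y ≠ 0 ∧ y ^ (Nat.card F - 1) ∉ (⊥ : Subalgebra F K) := by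
  haveI : Finite K := Module.finite_of_finite F
  by_contra hcon
  push Not at hcon
  have hq : 1 < Nat.card F := Finite.one_lt_card
  have h1 : ∀ y : Kˣ, y ^ ((Nat.card F - 1) * (Nat.card F - 1)) = 1 := by
    intro y
    obtain ⟨a, ha⟩ := Algebra.mem_bot.1 (hcon y y.ne_zero)
    have ha0 : a ≠ 0 := by
      rintro rfl
      rw [map_zero] at ha
      exact pow_ne_zero _ y.ne_zero ha.symm
    have h3 : a ^ (Nat.card F - 1) = 1 := by
      haveI : Fintype F := Fintype.ofFinite F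
      rw [Nat.card_eq_fintype_card]
      exact FiniteField.pow_card_sub_one_eq_one a ha0
    apply Units.ext
    rw [Units.val_pow_eq_pow_val, pow_mul, ← ha, ← map_pow, h3, map_one, Units.val_one]
  have h4 := Monoid.exponent_dvd_of_forall_pow_eq_one h1
  rw [IsCyclic.exponent_eq_card, Nat.card_units] at h4
  have h5 := Nat.le_of_dvd (Nat.mul_pos (by omega) (by omega)) h4
  have h6 : Nat.card K = Nat.card F ^ finrank F K := Module.natCard_eq_pow_finrank
  have h7 : Nat.card F ^ 2 ≤ Nat.card K := by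
    rw [h6]
    exact Nat.pow_le_pow_right (by omega) h2
  obtain ⟨k, hk⟩ : ∃ k, Nat.card F = k + 2 := ⟨Nat.card F - 2, by omega⟩
  rw [hk] at h5 h7
  have e : k + 2 - 1 = k + 1 := by omega
  rw [e] at h5
  have h8 : Nat.card K ≤ (k + 1) * (k + 1) + 1 := by omega
  have h9 := h7.trans h8
  nlinarith

theorem Rel.refl (x : V) : Rel M Z x x := ⟨1, M.one_mem, fun _ _ => rfl, rfl⟩

theorem mb_line {u : V} (hu : u ≠ 0) (hN : ∀ x, x ∈ N ↔ ∃ k : K, k • u = x) : Mb K M N :=
  ⟨1, M.one_mem, u, hu, fun x => (hN x).trans Iff.rfl⟩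

/-- transitivity off the intersection -/
theorem trans_compl [Finite F] [FiniteDimensional F K] (hp : (finrank F K).Prime) (hG : Gen K M) {N₁ N₂ : Submodule F V} {u : V}
    (hu : u ≠ 0) (hN₁ : ∀ x, x ∈ N₁ ↔ ∃ k : K, k • u = x) (h₂ : Mb K M N₂) (h12 : ¬ N₁ ≤ N₂) (h21 : ¬ N₂ ≤ N₁) {x y : V}
    (hx : x ∉ N₁ ⊓ N₂) (hy : y ∉ N₁ ⊓ N₂) : Rel M (N₁ ⊓ N₂) x y := by
  have h₁ : Mb K M N₁ := mb_line hu hN₁
  obtain ⟨T₁, hT₁⟩ : ∃ T₁ : Submodule F V, ∀ t, t ∈ T₁ ↔ ∀ a : F, TT M (N₁ ⊓ N₂) (a • t) :=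
    ⟨{ carrier := {t | ∀ a : F, TT M (N₁ ⊓ N₂) (a • t)}
       add_mem' := fun {s t} hs ht a => by
         rw [smul_add]
         exact TT.add hG h₁ h₂ h12 h21 (hs a) (ht a)
       zero_mem' := fun a x _ _ => by
         rw [smul_zero, add_zero]
         exact Rel.refl x
       smul_mem' := fun c t ht a => by
         rw [smul_smul]
         exact ht _ }, fun t => Iff.rfl⟩
  have hstab : ∀ g ∈ M, (∀ z ∈ N₁ ⊓ N₂, g z = z) → ∀ t ∈ T₁, g t ∈ T₁ := by
    intro g hg hgZ t ht
    rw [hT₁] at ht ⊢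
    intro a
    rw [← map_smul]
    exact TT.stab hg hgZ (ht a)
  have hN1T : N₁ ≤ T₁ := fun t ht => (hT₁ t).2 fun a => TT.of_left hG h₁ h₂ h21 (N₁.smul_mem a ht)
  have hN2T : N₂ ≤ T₁ := fun t ht => (hT₁ t).2 fun a => by
    rw [inf_comm]
    exact TT.of_left hG h₂ h₁ h12 (N₂.smul_mem a ht)
  obtain ⟨t, ht2, ht1⟩ := SetLike.not_le_iff_exists.1 h21
  have htT := hN2T ht2
  have htP : t ∉ Submodule.span K {u} := by
    intro hm
    exact ht1 ((hN₁ t).2 (Submodule.mem_span_singleton.1 hm))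
  obtain ⟨φ, hφ, hφ'⟩ := exists_phi htP
  have hφu : φ u = 0 := hφ' u (Submodule.mem_span_singleton_self u)
  have hfix : ∀ (w : V) (g : V ≃ₗ[F] V), (∀ x, g x = x + φ x • w) → ∀ z ∈ N₁ ⊓ N₂, g z = z := by
    intro w g hg z hz
    obtain ⟨k, rfl⟩ := (hN₁ z).1 hz.1
    rw [hg, map_smul, hφu, smul_zero, zero_smul, add_zero]
  have hker : ∀ w, φ w = 0 → w ∈ T₁ := by
    intro w hw
    obtain ⟨g, hg, hgx⟩ := hG.tr hw
    have h1 := hstab g hg (hfix w g hgx) t htT
    rw [hgx, hφ, one_smul] at h1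
    exact (T₁.add_mem_iff_right htT).1 h1
  let L : Subalgebra F K :=
    { carrier := {k | ∀ c : K, c • t ∈ T₁ → (k * c) • t ∈ T₁}
      mul_mem' := fun {a b} ha hb c hc => by
        rw [mul_assoc]
        exact ha _ (hb c hc)
      add_mem' := fun {a b} ha hb c hc => by
        rw [add_mul, add_smul]
        exact T₁.add_mem (ha c hc) (hb c hc)
      algebraMap_mem' := fun a c hc => by
        rw [← Algebra.smul_def, smul_assoc]
        exact T₁.smul_mem a hc }
  have hLmem : ∀ k, k ∈ L ↔ ∀ c : K, c • t ∈ T₁ → (k * c) • t ∈ T₁ := fun k => Iff.rfl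
  have hLtop : L = ⊤ := by
    haveI := Subalgebra.isSimpleOrder_of_finrank_prime F K hp
    rcases eq_bot_or_eq_top L with hb | ht
    · exfalso
      obtain ⟨y, hy, hyb⟩ := exists_irr_pow (F := F) (K := K) hp.two_le
      apply hyb
      rw [← hb, hLmem]
      intro c hc
      obtain ⟨g, hg, hgx⟩ := hG φ ((y ^ (Nat.card F - 1) - 1) • t) y hy (by
        rw [map_smul, hφ, smul_eq_mul, mul_one, add_sub_cancel])
      have h1 := hstab g hg (hfix _ g hgx) _ hc
      rw [hgx, map_smul, hφ, smul_eq_mul, mul_one, smul_smul, ← add_smul] at h1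
      convert h1 using 2
      ring
    · exact ht
  have htop : ∀ v, v ∈ T₁ := by
    intro v
    have e : v = φ v • t + (v - φ v • t) := by abel
    rw [e]
    apply T₁.add_mem
    · have h1 : φ v ∈ L := by rw [hLtop]; trivial
      have h3 := h1 1 (by rw [one_smul]; exact htT)
      rwa [mul_one] at h3
    · apply hker
      rw [map_sub, map_smul, hφ, smul_eq_mul, mul_one, sub_self]
  have h3 := (hT₁ (y - x)).1 (htop _) 1
  rw [one_smul] at h3
  have h4 := h3 x hx (by rwa [add_sub_cancel])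
  rwa [add_sub_cancel] at h4

end Cfsg.Agent.H21.GUx
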