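import Mathlib
import Cfsg.Agent.GUx2

set_option autoImplicit false

/-! linear groups over extension fields of prime degree: the maximal intersection has codimension one -/

namespace Cfsg.Agent.H21.GUx

open Module

variable {F K V : Type*} [Field F] [Field K] [Algebra F K] [AddCommGroup V] [Module F V] [Module K V] [IsScalarTower F K V]
variable {M : Subgroup (V ≃ₗ[F] V)} {N Z : Submodule F V}

theorem count_dvd [Finite V] {V' Z : Submodule F V} (hZ : Z ≤ V') {c : ℕ} (cls : V → Submodule F V)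
    (h : ∀ x ∈ V', x ∉ Z → Z ≤ cls x ∧ x ∈ cls x ∧ cls x ≤ V' ∧ Nat.card (cls x) = c ∧ ∀ y ∈ cls x, y ∉ Z → cls y = cls x) :
    (c - Nat.card Z) ∣ (Nat.card V' - Nat.card Z) := by
  classical
  haveI : Fintype V := Fintype.ofFinite V
  have hcard : ∀ W : Submodule F V, Z ≤ W → (Finset.univ.filter (fun x => x ∈ W ∧ x ∉ Z)).card = Nat.card W - Nat.card Z := by
    intro W hW
    have h1 : (Finset.univ.filter (fun x => x ∈ W ∧ x ∉ Z)) = ((W : Set V) \ (Z : Set V)).toFinset := by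
      ext x
      simp
    rw [h1, ← Set.ncard_eq_toFinset_card', Set.ncard_diff hW]
    rfl
  have h1 := Finset.card_eq_sum_card_image cls (Finset.univ.filter (fun x => x ∈ V' ∧ x ∉ Z))
  rw [hcard V' hZ] at h1
  rw [h1]
  apply Finset.dvd_sum
  intro b hb
  obtain ⟨a, ha, rfl⟩ := Finset.mem_image.1 hb
  rw [Finset.mem_filter] at ha
  obtain ⟨k1, k2, k3, k4, k5⟩ := h a ha.2.1 ha.2.2
  have h2 : (Finset.univ.filter (fun x => x ∈ V' ∧ x ∉ Z)).filter (fun x => cls x = cls a) =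
      Finset.univ.filter (fun x => x ∈ cls a ∧ x ∉ Z) := by
    ext x
    simp only [Finset.mem_filter, Finset.mem_univ, true_and]
    constructor
    · rintro ⟨⟨hx1, hx2⟩, hx3⟩
      refine ⟨?_, hx2⟩
      rw [← hx3]
      exact (h x hx1 hx2).2.1
    · rintro ⟨hx1, hx2⟩
      exact ⟨⟨k3 hx1, hx2⟩, k5 x hx1 hx2⟩
  rw [h2, hcard _ k1, k4]

theorem arith {q r s : ℕ} (hq : 2 ≤ q) (hr : r.Prime) (hs : 1 ≤ s) (hsr : s < r) (h : (q ^ r - q ^ s) ∣ (q ^ (2 * r) - q ^ s)) :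
    r = s + 1 := by
  obtain ⟨d, hd⟩ : ∃ d, r = s + d := ⟨r - s, by omega⟩
  have hd1 : 1 ≤ d := by omega
  have e1 : q ^ r - q ^ s = q ^ s * (q ^ d - 1) := by rw [hd, pow_add, Nat.mul_sub, mul_one]
  have e2 : q ^ (2 * r) - q ^ s = q ^ s * (q ^ (d + r) - 1) := by
    rw [Nat.mul_sub, mul_one, ← pow_add]
    congr 2
    omega
  rw [e1, e2] at h
  have h1 := Nat.dvd_of_mul_dvd_mul_left (by positivity) h
  have h2 := Nat.pow_sub_one_gcd_pow_sub_one q d (d + r)
  rw [Nat.gcd_eq_left h1] at h2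
  have h3 : 1 ≤ q ^ d := Nat.one_le_pow _ _ (by omega)
  have h4 : 1 ≤ q ^ (Nat.gcd d (d + r)) := Nat.one_le_pow _ _ (by omega)
  have h5 : q ^ d = q ^ (Nat.gcd d (d + r)) := by omega
  have h6 := Nat.pow_right_injective hq h5
  have h7 : d ∣ d + r := by
    have := Nat.gcd_dvd_right d (d + r)
    rwa [← h6] at this
  have h8 : d ∣ r := (Nat.dvd_add_right (dvd_refl d)).1 h7
  rcases (Nat.dvd_prime hr).1 h8 with h9 | h9
  · omega
  · omega

/-- the codimension one configuration -/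
theorem config [Finite F] [FiniteDimensional F K] [FiniteDimensional F V] (hp : (finrank F K).Prime) (hG : Gen K M)
    (h2 : ∀ v : V, ∃ x, x ∉ Submodule.span K {v}) {A B : Submodule F V} (hA : Mb K M A) (hB : Mb K M B) (hAB : A ≠ B)
    (hne : A ⊓ B ≠ ⊥) :
    ∃ (u : V) (N₁ N₂ : Submodule F V), u ≠ 0 ∧ (∀ x, x ∈ N₁ ↔ ∃ k : K, k • u = x) ∧ Mb K M N₂ ∧ N₁ ≠ N₂ ∧
      finrank F K = finrank F ↥(N₁ ⊓ N₂) + 1 ∧
      ∀ A B : Submodule F V, Mb K M A → Mb K M B → A ≠ B → finrank F ↥(A ⊓ B) ≤ finrank F ↥(N₁ ⊓ N₂) := by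
  classical
  haveI : Finite V := Module.finite_of_finite F
  haveI : Finite K := Module.finite_of_finite F
  let P : ℕ → Prop := fun s => ∃ A B : Submodule F V, Mb K M A ∧ Mb K M B ∧ A ≠ B ∧ finrank F ↥(A ⊓ B) = s
  have hbd : ∀ s, P s → s ≤ finrank F K := by
    rintro s ⟨A, B, hA, hB, -, rfl⟩
    rw [← hA.finrank]
    exact Submodule.finrank_mono inf_le_left
  have hP0 : P (finrank F ↥(A ⊓ B)) := ⟨A, B, hA, hB, hAB, rfl⟩
  obtain ⟨s, hs, hmax⟩ : ∃ s, P s ∧ ∀ s', P s' → s' ≤ s :=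
    ⟨Nat.findGreatest P (finrank F K), Nat.findGreatest_spec (hbd _ hP0) hP0, fun s' hs' => Nat.le_findGreatest (hbd _ hs') hs'⟩
  have hs1 : 1 ≤ s := by
    refine le_trans ?_ (hmax _ hP0)
    rw [Nat.one_le_iff_ne_zero]
    intro h0
    exact hne (Submodule.finrank_eq_zero.1 h0)
  obtain ⟨A', B', hA', hB', hne', hfr⟩ := hs
  obtain ⟨g, hg, u, hu, hAu⟩ := hA'
  have hN₁ : ∀ x, x ∈ A'.map (g⁻¹ : V ≃ₗ[F] V).toLinearMap ↔ ∃ k : K, k • u = x := by
    intro x
    rw [Submodule.mem_map]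
    constructor
    · rintro ⟨y, hy, rfl⟩
      obtain ⟨k, rfl⟩ := (hAu y).1 hy
      exact ⟨k, (ia g _).symm⟩
    · rintro ⟨k, rfl⟩
      exact ⟨g (k • u), (hAu _).2 ⟨k, rfl⟩, ia g _⟩
  have hN₂ : Mb K M (B'.map (g⁻¹ : V ≃ₗ[F] V).toLinearMap) := hB'.map (M.inv_mem hg)
  have hfr' : finrank F ↥(A'.map (g⁻¹ : V ≃ₗ[F] V).toLinearMap ⊓ B'.map (g⁻¹ : V ≃ₗ[F] V).toLinearMap) = s := by
    rw [← Submodule.map_inf _ (g⁻¹ : V ≃ₗ[F] V).injective, ← hfr]
    exact LinearEquiv.finrank_map_eq (g⁻¹ : V ≃ₗ[F] V) _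
  have hneq : A'.map (g⁻¹ : V ≃ₗ[F] V).toLinearMap ≠ B'.map (g⁻¹ : V ≃ₗ[F] V).toLinearMap := by
    intro h
    exact hne' (Submodule.map_injective_of_injective (g⁻¹ : V ≃ₗ[F] V).injective h)
  generalize A'.map (g⁻¹ : V ≃ₗ[F] V).toLinearMap = N₁ at *
  generalize B'.map (g⁻¹ : V ≃ₗ[F] V).toLinearMap = N₂ at *
  have h₁ : Mb K M N₁ := mb_line hu hN₁
  have h12 : ¬ N₁ ≤ N₂ := fun h => hneq (h₁.eq_of_le hN₂ h)
  have h21 : ¬ N₂ ≤ N₁ := fun h => hneq (hN₂.eq_of_le h₁ h).symm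
  refine ⟨u, N₁, N₂, hu, hN₁, hN₂, hneq, ?_, fun A B hA hB hAB => by rw [hfr']; exact hmax _ ⟨A, B, hA, hB, hAB, rfl⟩⟩
  -- uniqueness of members through Z and a point
  have huniq : ∀ A B : Submodule F V, Mb K M A → Mb K M B → N₁ ⊓ N₂ ≤ A → N₁ ⊓ N₂ ≤ B → ∀ x, x ∉ N₁ ⊓ N₂ → x ∈ A → x ∈ B → A = B := by
    intro A B hA hB hZA hZB x hx hxA hxB
    by_contra hne
    have h1 := hmax _ ⟨A, B, hA, hB, hne, rfl⟩
    have h3 : N₁ ⊓ N₂ < A ⊓ B := lt_of_le_of_ne (le_inf hZA hZB) (fun h => hx (h ▸ ⟨hxA, hxB⟩))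
    have h4 := Submodule.finrank_lt_finrank_of_lt h3
    omega
  have hexist : ∀ x, x ∉ N₁ ⊓ N₂ → ∃ A, Mb K M A ∧ N₁ ⊓ N₂ ≤ A ∧ x ∈ A := by
    intro x hx
    obtain ⟨u', hu', hu''⟩ := SetLike.not_le_iff_exists.1 h12
    obtain ⟨g, hg, hgZ, hgx⟩ := trans_compl hp hG hu hN₁ hN₂ h12 h21 (x := u') (fun h => hu'' h.2) hx
    refine ⟨N₁.map (g : V →ₗ[F] V), h₁.map hg, fun z hz => ?_, ?_⟩
    · exact Submodule.mem_map.2 ⟨z, hz.1, hgZ z hz⟩
    · exact Submodule.mem_map.2 ⟨u', hu', hgx⟩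
  obtain ⟨w, hw⟩ := h2 u
  have hwN : w ∉ N₁ := fun h => hw (Submodule.mem_span_singleton.2 ((hN₁ w).1 h))
  have hsub : ∀ x, x ∉ N₁ → ∀ A, Mb K M A → N₁ ⊓ N₂ ≤ A → x ∈ A → ∀ y ∈ A, y ∈ Submodule.span K {u, x} := by
    intro x hx A hA hZA hxA y hy
    by_contra hcon
    obtain ⟨φ, hφ, hφ'⟩ := exists_phi hcon
    have hφu : φ u = 0 := hφ' u (Submodule.subset_span (by simp))
    have hφx : φ x = 0 := hφ' x (Submodule.subset_span (by simp))
    have hker : ∀ v, φ v = 0 → v ∈ A := by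
      intro v hv
      obtain ⟨g, hg, hgx⟩ := hG.tr hv
      have h1 : A.map (g : V →ₗ[F] V) = A := by
        refine huniq _ _ (hA.map hg) hA (fun z hz => ?_) hZA x (fun h => hx h.1) ?_ hxA
        · refine Submodule.mem_map.2 ⟨z, hZA hz, ?_⟩
          obtain ⟨k, rfl⟩ := (hN₁ z).1 hz.1
          show g (k • u) = _
          rw [hgx, map_smul, hφu, smul_zero, zero_smul, add_zero]
        · refine Submodule.mem_map.2 ⟨x, hxA, ?_⟩
          show g x = _
          rw [hgx, hφx, zero_smul, add_zero]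
      have h3 : g y ∈ A := by
        rw [← h1]
        exact Submodule.mem_map.2 ⟨y, hy, rfl⟩
      rw [hgx, hφ, one_smul] at h3
      exact (A.add_mem_iff_right hy).1 h3
    have h1 : N₁ ≤ A := by
      intro z hz
      obtain ⟨k, rfl⟩ := (hN₁ z).1 hz
      apply hker
      rw [map_smul, hφu, smul_zero]
    have h3 := h₁.eq_of_le hA h1
    rw [← h3] at hxA
    exact hx hxA
  have hsub' : ∀ x ∈ (Submodule.span K {u, w}).restrictScalars F, x ∉ N₁ ⊓ N₂ → ∀ A, Mb K M A → N₁ ⊓ N₂ ≤ A → x ∈ A →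
      A ≤ (Submodule.span K {u, w}).restrictScalars F := by
    intro x hxV hx A hA hZA hxA
    by_cases hx1 : x ∈ N₁
    · have : A = N₁ := huniq _ _ hA h₁ hZA inf_le_left x hx hxA hx1
      rw [this]
      intro z hz
      obtain ⟨k, rfl⟩ := (hN₁ z).1 hz
      exact Submodule.smul_mem _ _ (Submodule.subset_span (by simp))
    · intro y hy
      have h1 := hsub x hx1 A hA hZA hxA y hy
      have h3 : Submodule.span K {u, x} ≤ Submodule.span K {u, w} := by
        rw [Submodule.span_le]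
        rintro z hz
        rcases hz with rfl | hz
        · exact Submodule.subset_span (by simp)
        · rw [Set.mem_singleton_iff] at hz
          rw [hz]
          exact hxV
      exact h3 h1
  have hcls : ∃ cls : V → Submodule F V, ∀ x, x ∉ N₁ ⊓ N₂ → Mb K M (cls x) ∧ N₁ ⊓ N₂ ≤ cls x ∧ x ∈ cls x := by
    refine ⟨fun x => if hx : x ∉ N₁ ⊓ N₂ then (hexist x hx).choose else ⊥, fun x hx => ?_⟩
    simp only [hx, not_false_eq_true, dif_pos]
    exact (hexist x hx).choose_spec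
  obtain ⟨cls, hcls⟩ := hcls
  have hZV : N₁ ⊓ N₂ ≤ (Submodule.span K {u, w}).restrictScalars F := by
    intro z hz
    obtain ⟨k, rfl⟩ := (hN₁ z).1 hz.1
    exact Submodule.smul_mem _ _ (Submodule.subset_span (by simp))
  have hcW : ∀ W : Submodule F V, Nat.card W = Nat.card F ^ finrank F W := fun W => Module.natCard_eq_pow_finrank
  have hdvd := count_dvd hZV (c := Nat.card F ^ finrank F K) cls (by
    intro x hxV hx
    obtain ⟨k1, k2, k3⟩ := hcls x hx
    refine ⟨k2, k3, hsub' x hxV hx _ k1 k2 k3, ?_, ?_⟩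
    · rw [hcW, k1.finrank]
    · intro y hy hyZ
      obtain ⟨l1, l2, l3⟩ := hcls y hyZ
      exact huniq _ _ l1 k1 l2 k2 y hyZ l3 hy)
  have hfrV : finrank F ((Submodule.span K {u, w}).restrictScalars F) = 2 * finrank F K := by
    have h1 : finrank K (Submodule.span K ({u, w} : Set V)) = 2 := by
      have hli : LinearIndependent K ![u, w] := by
        rw [LinearIndependent.pair_iff]
        intro a b hab
        have hb : b = 0 := by
          by_contra hb
          apply hw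
          refine Submodule.mem_span_singleton.2 ⟨-(b⁻¹ * a), ?_⟩
          have e : b • w = -(a • u) := by
            rw [eq_neg_iff_add_eq_zero, add_comm]
            exact hab
          calc -(b⁻¹ * a) • u = b⁻¹ • (-(a • u)) := by module
            _ = w := by rw [← e, smul_smul, inv_mul_cancel₀ hb, one_smul]
        rw [hb, zero_smul, add_zero] at hab
        exact ⟨(smul_eq_zero.1 hab).resolve_right hu, hb⟩
      have h3 := finrank_span_eq_card hli
      rw [Fintype.card_fin, Matrix.range_cons_cons_empty] at h3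
      exact h3
    have h3 : finrank F K * finrank K (Submodule.span K ({u, w} : Set V)) = finrank F (Submodule.span K ({u, w} : Set V)) :=
      Module.finrank_mul_finrank F K _
    rw [h1] at h3
    rw [mul_comm] at h3
    exact h3.symm
  rw [hcW, hcW, hfrV, hfr'] at hdvd
  have hsr : s < finrank F K := by
    have h1 : N₁ ⊓ N₂ < N₁ := lt_of_le_of_ne inf_le_left (fun h => h12 (h ▸ inf_le_right))
    have h3 := Submodule.finrank_lt_finrank_of_lt h1
    rw [hfr', h₁.finrank] at h3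
    exact h3
  rw [hfr']
  exact arith Finite.one_lt_card hp hs1 hsr hdvd

end Cfsg.Agent.H21.GUx
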