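import Mathlib
import Cfsg.Agent.GUx3

set_option autoImplicit false

/-! linear groups over extension fields of prime degree: from one element to all transvections -/

namespace Cfsg.Agent.H21.GUx

open Module

variable {F K V : Type*} [Field F] [Field K] [Algebra F K] [AddCommGroup V] [Module F V] [Module K V] [IsScalarTower F K V]
variable {M : Subgroup (V ≃ₗ[F] V)}

/-- the configuration -/
structure Cfg (K : Type*) [Field K] [Algebra F K] [Module K V] (M : Subgroup (V ≃ₗ[F] V)) (u : V) (N₁ N₂ : Submodule F V) : Prop where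
  gen : Gen K M
  prime : (finrank F K).Prime
  h2 : ∀ v : V, ∃ x, x ∉ Submodule.span K {v}
  un : u ∉ N₂
  line : ∀ x, x ∈ N₁ ↔ ∃ k : K, k • u = x
  mb : Mb K M N₂
  fr : finrank F K = finrank F ↥(N₁ ⊓ N₂) + 1

theorem exists_cfg [Finite F] [FiniteDimensional F K] [FiniteDimensional F V] (hp : (finrank F K).Prime) (hG : Gen K M)
    (h2 : ∀ v : V, ∃ x, x ∉ Submodule.span K {v}) {A B : Submodule F V} (hA : Mb K M A) (hB : Mb K M B) (hAB : A ≠ B)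
    (hne : A ⊓ B ≠ ⊥) : ∃ (u : V) (N₁ N₂ : Submodule F V), Cfg K M u N₁ N₂ := by
  obtain ⟨u, N₁, N₂, hu, hN₁, hN₂, hneq, hfr, -⟩ := config hp hG h2 hA hB hAB hne
  have h₁ : Mb K M N₁ := mb_line hu hN₁
  have h12 : ¬ N₁ ≤ N₂ := fun h => hneq (h₁.eq_of_le hN₂ h)
  obtain ⟨v, hv, hv'⟩ := SetLike.not_le_iff_exists.1 h12
  obtain ⟨k, rfl⟩ := (hN₁ v).1 hv
  have hk : k ≠ 0 := by
    rintro rfl
    rw [zero_smul] at hv'
    exact hv' N₂.zero_mem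
  refine ⟨k • u, N₁, N₂, hG, hp, h2, hv', fun x => ?_, hN₂, hfr⟩
  rw [hN₁]
  constructor
  · rintro ⟨c, rfl⟩
    exact ⟨c * k⁻¹, by rw [smul_smul, mul_assoc, inv_mul_cancel₀ hk, mul_one]⟩
  · rintro ⟨c, rfl⟩
    exact ⟨c * k, by rw [smul_smul]⟩

variable {u : V} {N₁ N₂ : Submodule F V}

theorem Cfg.u0 (c : Cfg K M u N₁ N₂) : u ≠ 0 := by
  rintro rfl
  exact c.un N₂.zero_mem

theorem Cfg.u1 (c : Cfg K M u N₁ N₂) : u ∈ N₁ := (c.line u).2 ⟨1, one_smul _ _⟩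

theorem Cfg.mb1 (c : Cfg K M u N₁ N₂) : Mb K M N₁ := mb_line c.u0 c.line

theorem Cfg.uZ (c : Cfg K M u N₁ N₂) : u ∉ N₁ ⊓ N₂ := fun h => c.un h.2

theorem Cfg.tc [Finite F] [FiniteDimensional F K] [FiniteDimensional F V] (c : Cfg K M u N₁ N₂) {x y : V}
    (hx : x ∉ N₁ ⊓ N₂) (hy : y ∉ N₁ ⊓ N₂) : Rel M (N₁ ⊓ N₂) x y := by
  have hne : N₁ ≠ N₂ := by
    intro h
    exact c.un (h ▸ c.u1)
  exact trans_compl c.prime c.gen c.u0 c.line c.mb (fun h => hne (c.mb1.eq_of_le c.mb h)) (fun h => hne (c.mb.eq_of_le c.mb1 h).symm) hx hy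

/-- the functional -/
theorem Cfg.exists_pi [FiniteDimensional F K] [FiniteDimensional F V] (c : Cfg K M u N₁ N₂) :
    ∃ π : K →ₗ[F] F, π 1 = 1 ∧ ∀ k, k • u - π k • u ∈ N₁ ⊓ N₂ := by
  obtain ⟨lam, h1, h2⟩ := exists_phi (K := F) c.uZ
  refine ⟨lam.comp ((LinearMap.toSpanSingleton K V u).restrictScalars F), ?_, fun k => ?_⟩
  · show lam ((1 : K) • u) = 1
    rw [one_smul, h1]
  · show k • u - lam (k • u) • u ∈ N₁ ⊓ N₂
    have h3 : N₁ ⊓ N₂ ≤ LinearMap.ker lam ⊓ N₁ := fun x hx => ⟨h2 x hx, hx.1⟩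
    have h4 : LinearMap.ker lam ⊓ N₁ < N₁ := by
      refine lt_of_le_of_ne inf_le_right (fun h => ?_)
      have := c.u1
      rw [← h] at this
      have h5 : lam u = 0 := this.1
      rw [h1] at h5
      exact one_ne_zero h5
    have h5 := Submodule.finrank_lt_finrank_of_lt h4
    rw [c.mb1.finrank, c.fr] at h5
    have h6 : N₁ ⊓ N₂ = LinearMap.ker lam ⊓ N₁ := Submodule.eq_of_le_of_finrank_le h3 (by omega)
    rw [h6]
    refine ⟨?_, N₁.sub_mem ((c.line _).2 ⟨k, rfl⟩) (N₁.smul_mem _ c.u1)⟩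
    show lam (k • u - lam (k • u) • u) = 0
    rw [map_sub, map_smul lam (lam (k • u)) u, h1, smul_eq_mul, mul_one, sub_self]

theorem Cfg.pi_zero (c : Cfg K M u N₁ N₂) {π : K →ₗ[F] F} (hπ : ∀ k, k • u - π k • u ∈ N₁ ⊓ N₂) {k : K} :
    k • u ∈ N₁ ⊓ N₂ ↔ π k = 0 := by
  constructor
  · intro h
    by_contra h0
    have h1 := (N₁ ⊓ N₂).sub_mem h (hπ k)
    rw [sub_sub_cancel] at h1
    have h3 := (N₁ ⊓ N₂).smul_mem (π k)⁻¹ h1
    rw [smul_smul, inv_mul_cancel₀ h0, one_smul] at h3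
    exact c.uZ h3
  · intro h
    have := hπ k
    rwa [h, zero_smul, sub_zero] at this

/-- lifting functionals -/
theorem exists_lift [Finite F] [FiniteDimensional F K] [FiniteDimensional F V] {π : K →ₗ[F] F} (hπ : π 1 ≠ 0) (γ : V →ₗ[F] F) :
    ∃ φ : V →ₗ[K] K, ∀ x, π (φ x) = γ x := by
  haveI : FiniteDimensional K V := FiniteDimensional.right F K V
  haveI : Finite K := Module.finite_of_finite F
  haveI : Finite V := Module.finite_of_finite F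
  haveI : Finite (V →ₗ[K] K) := Module.finite_of_finite K
  haveI : Finite (V →ₗ[F] F) := Module.finite_of_finite F
  let Φ : (V →ₗ[K] K) → (V →ₗ[F] F) := fun φ => π.comp (φ.restrictScalars F)
  have hΦ : ∀ φ x, Φ φ x = π (φ x) := fun _ _ => rfl
  have hinj : Function.Injective Φ := by
    intro φ ψ h
    by_contra hne
    obtain ⟨x, hx⟩ : ∃ x, φ x - ψ x ≠ 0 := by
      by_contra hcon
      push Not at hcon
      exact hne (LinearMap.ext fun x => sub_eq_zero.1 (hcon x))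
    have h1 := congrArg (fun f : V →ₗ[F] F => f ((φ x - ψ x)⁻¹ • x)) h
    simp only [hΦ, map_smul, smul_eq_mul] at h1
    apply hπ
    have e : (1 : K) = (φ x - ψ x)⁻¹ * φ x - (φ x - ψ x)⁻¹ * ψ x := by
      rw [← mul_sub, inv_mul_cancel₀ hx]
    rw [e, map_sub, h1, sub_self]
  have hcard : Nat.card (V →ₗ[K] K) = Nat.card (V →ₗ[F] F) := by
    rw [Module.natCard_eq_pow_finrank (K := K), Module.natCard_eq_pow_finrank (K := F) (V := V →ₗ[F] F)]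
    rw [show finrank K (V →ₗ[K] K) = finrank K V from Subspace.dual_finrank_eq,
      show finrank F (V →ₗ[F] F) = finrank F V from Subspace.dual_finrank_eq, ← Module.finrank_mul_finrank F K V, pow_mul,
      Module.natCard_eq_pow_finrank (K := F) (V := K)]
  have hbij := (Nat.bijective_iff_injective_and_card Φ).2 ⟨hinj, hcard⟩
  obtain ⟨φ, hφ⟩ := hbij.2 γ
  exact ⟨φ, fun x => by rw [← hΦ, hφ]⟩

/-- transvections over the large field inducing transvections on the quotient -/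
theorem Cfg.lift [Finite F] [FiniteDimensional F K] [FiniteDimensional F V] (c : Cfg K M u N₁ N₂) {γ : V →ₗ[F] F}
    (hγ : ∀ x ∈ N₁, γ x = 0) : ∃ φ : V →ₗ[K] K, φ u = 0 ∧ ∀ x, φ x • u - γ x • u ∈ N₁ ⊓ N₂ := by
  obtain ⟨π, h1, hπ⟩ := c.exists_pi
  obtain ⟨φ, hφ⟩ := exists_lift (π := π) (by rw [h1]; exact one_ne_zero) γ
  refine ⟨φ, ?_, fun x => ?_⟩
  · by_contra h0
    have h3 : π 1 = 0 := by
      have h4 : (φ u)⁻¹ • u ∈ N₁ := (c.line _).2 ⟨_, rfl⟩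
      have h5 := hφ ((φ u)⁻¹ • u)
      rw [hγ _ h4, map_smul, smul_eq_mul, inv_mul_cancel₀ h0] at h5
      exact h5
    rw [h1] at h3
    exact one_ne_zero h3
  · rw [← hφ]
    exact hπ _

/-- transvections in the group -/
def TV (M : Subgroup (V ≃ₗ[F] V)) (z : V) (γ : V →ₗ[F] F) : Prop := ∃ g ∈ M, ∀ x, g x = x + γ x • z

theorem TV.conj {z : V} {γ γ' : V →ₗ[F] F} (h : TV M z γ) {g : V ≃ₗ[F] V} (hg : g ∈ M) (hγ : ∀ x, γ' (g x) = γ x) : TV M (g z) γ' := by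
  obtain ⟨t, ht, htx⟩ := h
  refine ⟨g * t * g⁻¹, M.mul_mem (M.mul_mem hg ht) (M.inv_mem hg), fun x => ?_⟩
  show g (t (g⁻¹ x)) = _
  rw [htx, map_add, ai, map_smul, ← hγ, ai]

theorem TV.add {z : V} {γ γ' : V →ₗ[F] F} (h : TV M z γ) (h' : TV M z γ') (hz : γ z = 0) : TV M z (γ + γ') := by
  obtain ⟨g, hg, hgx⟩ := h
  obtain ⟨g', hg', hgx'⟩ := h'
  refine ⟨g * g', M.mul_mem hg hg', fun x => ?_⟩
  show g (g' x) = _
  rw [hgx', hgx, map_add, map_smul, hz, smul_zero, add_zero, LinearMap.add_apply]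
  module

theorem Cfg.step_b [Finite F] [FiniteDimensional F K] [FiniteDimensional F V] (c : Cfg K M u N₁ N₂) {ρ : V ≃ₗ[F] V} (hρ : ρ ∈ M)
    (hρZ : ∀ z ∈ N₁ ⊓ N₂, ρ z = z) (hρ' : ∀ x, ρ x - x ∈ N₁ ⊓ N₂) (hne : ρ ≠ 1) :
    ∃ z₀ ∈ N₁ ⊓ N₂, z₀ ≠ 0 ∧ ∀ γ : V →ₗ[F] F, (∀ x ∈ N₁, γ x = 0) → TV M z₀ γ := by
  obtain ⟨x₀, hx₀⟩ : ∃ x, ρ x ≠ x := by
    by_contra hcon
    push Not at hcon
    exact hne (LinearEquiv.ext hcon)
  have hx₀Z : x₀ ∉ N₁ ⊓ N₂ := fun h => hx₀ (hρZ _ h)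
  obtain ⟨g, hg, hgZ, hgx⟩ := c.tc hx₀Z c.uZ
  have hgZ' : ∀ z ∈ N₁ ⊓ N₂, g⁻¹ z = z := by
    intro z hz
    nth_rewrite 1 [← hgZ z hz]
    exact ia g z
  obtain ⟨ρ', hρ'd⟩ : ∃ ρ', ρ' = g * ρ * g⁻¹ := ⟨_, rfl⟩
  have hρ'M : ρ' ∈ M := by rw [hρ'd]; exact M.mul_mem (M.mul_mem hg hρ) (M.inv_mem hg)
  have hρ'x : ∀ x, ρ' x = g (ρ (g⁻¹ x)) := fun x => by rw [hρ'd]; rfl
  have hd : ∀ x, ρ' x - x ∈ N₁ ⊓ N₂ := by
    intro x
    have h1 := hρ' (g⁻¹ x)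
    have h2 := hgZ _ h1
    rw [map_sub, ai, ← hρ'x] at h2
    rw [h2]
    exact h1
  have hfixZ : ∀ z ∈ N₁ ⊓ N₂, ρ' z = z := by
    intro z hz
    rw [hρ'x, hgZ' z hz, hρZ z hz, hgZ z hz]
  have hu' : ρ' u = u + (ρ x₀ - x₀) := by
    have h1 : g⁻¹ u = x₀ := by rw [← hgx]; exact ia g x₀
    rw [hρ'x, h1]
    have h2 : ρ x₀ = x₀ + (ρ x₀ - x₀) := by abel
    rw [h2, map_add, hgx, hgZ _ (hρ' x₀)]
    abel
  refine ⟨ρ x₀ - x₀, hρ' x₀, sub_ne_zero.2 hx₀, fun γ hγ => ?_⟩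
  obtain ⟨φ, hφu, hφ⟩ := c.lift hγ
  obtain ⟨h, hh, hhx⟩ := c.gen.tr hφu
  have hφZ : ∀ z ∈ N₁, φ z = 0 := by
    intro z hz
    obtain ⟨k, rfl⟩ := (c.line z).1 hz
    rw [map_smul, hφu, smul_zero]
  refine ⟨h⁻¹ * (ρ' * h * ρ'⁻¹), M.mul_mem (M.inv_mem hh) (M.mul_mem (M.mul_mem hρ'M hh) (M.inv_mem hρ'M)), fun x => ?_⟩
  have key : ρ' (h (ρ'⁻¹ x)) = h (x + γ x • (ρ x₀ - x₀)) := by
    have hy : ρ' (ρ'⁻¹ x) = x := ai ρ' x
    generalize ρ'⁻¹ x = y at *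
    have h1 := hd y
    rw [hy] at h1
    have h2 : φ y = φ x := by
      have := hφZ _ h1.1
      rw [map_sub, sub_eq_zero] at this
      exact this.symm
    have h3 : ρ' (φ x • u) = φ x • u + γ x • (ρ x₀ - x₀) := by
      have e : φ x • u = γ x • u + (φ x • u - γ x • u) := by abel
      rw [e, map_add, map_smul, hu', hfixZ _ (hφ x), smul_add]
      abel
    have h4 : φ (x + γ x • (ρ x₀ - x₀)) = φ x := by
      rw [map_add, hφZ _ (N₁.smul_mem _ (hρ' x₀).1), add_zero]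
    rw [hhx y, hhx, map_add, hy, h2, h3, h4]
    abel
  show h⁻¹ (ρ' (h (ρ'⁻¹ x))) = _
  rw [key, ia]

theorem Cfg.decomp [FiniteDimensional F K] [FiniteDimensional F V] (c : Cfg K M u N₁ N₂) {x : V} (hx : x ∈ N₁) :
    ∃ a : F, x - a • u ∈ N₁ ⊓ N₂ := by
  obtain ⟨π, h1, hπ⟩ := c.exists_pi
  obtain ⟨k, rfl⟩ := (c.line x).1 hx
  exact ⟨π k, hπ k⟩

theorem Cfg.N1_ne_top (c : Cfg K M u N₁ N₂) : ∃ y, y ∉ N₁ := by
  obtain ⟨x, hx⟩ := c.h2 u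
  exact ⟨x, fun h => hx (Submodule.mem_span_singleton.2 ((c.line x).1 h))⟩

theorem Cfg.step_c [Finite F] [FiniteDimensional F K] [FiniteDimensional F V] (c : Cfg K M u N₁ N₂) {z₀ : V}
    (hz₀ : z₀ ∈ N₁ ⊓ N₂) (h : ∀ γ : V →ₗ[F] F, (∀ x ∈ N₁, γ x = 0) → TV M z₀ γ) :
    ∀ γ : V →ₗ[F] F, (∀ x ∈ N₁ ⊓ N₂, γ x = 0) → TV M z₀ γ := by
  intro γ hγ
  obtain ⟨w, hw, hwZ⟩ : ∃ w, γ w = 0 ∧ w ∉ N₁ ⊓ N₂ := by
    by_contra hcon
    push Not at hcon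
    have h1 : LinearMap.ker γ ≤ N₁ ⊓ N₂ := fun x hx => hcon x hx
    have h2 := Submodule.finrank_mono h1
    have h3 := LinearMap.finrank_range_add_finrank_ker γ
    have h4 : finrank F (LinearMap.range γ) ≤ 1 := by
      have := Submodule.finrank_le (LinearMap.range γ)
      rwa [Module.finrank_self] at this
    have h5 : finrank F N₁ < finrank F V := by
      obtain ⟨y, hy⟩ := c.N1_ne_top
      exact Submodule.finrank_lt (fun h => hy (h ▸ trivial))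
    have h6 := c.fr
    rw [c.mb1.finrank] at h5
    omega
  obtain ⟨g, hg, hgZ, hgu⟩ := c.tc c.uZ hwZ
  have h1 := h (γ.comp (g : V →ₗ[F] V)) (fun x hx => by
    obtain ⟨a, ha⟩ := c.decomp hx
    have e : x = (x - a • u) + a • u := by abel
    rw [e, map_add]
    show γ (g (x - a • u)) + γ (g (a • u)) = 0
    rw [hgZ _ ha, hγ _ ha, map_smul, hgu, map_smul, hw, smul_zero, add_zero])
  have h2 := h1.conj hg (γ' := γ) (fun x => rfl)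
  rwa [hgZ _ hz₀] at h2

theorem Cfg.step_d [Finite F] [FiniteDimensional F K] [FiniteDimensional F V] (c : Cfg K M u N₁ N₂) {z₀ : V}
    (hz₀ : z₀ ∈ N₁ ⊓ N₂) (hz₀' : z₀ ≠ 0) (h : ∀ γ : V →ₗ[F] F, (∀ x ∈ N₁ ⊓ N₂, γ x = 0) → TV M z₀ γ) :
    ∀ γ : V →ₗ[F] F, γ z₀ = 0 → TV M z₀ γ := by
  let A : Submodule F (Dual F V) :=
    { carrier := {γ | γ z₀ = 0 ∧ ∀ a : F, TV M z₀ (a • γ)}
      add_mem' := fun {γ γ'} h1 h2 => ⟨by rw [LinearMap.add_apply, h1.1, h2.1, add_zero], fun a => by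
        rw [smul_add]
        exact (h1.2 a).add (h2.2 a) (by rw [LinearMap.smul_apply, h1.1, smul_zero])⟩
      zero_mem' := ⟨rfl, fun a => by
        rw [smul_zero]
        exact ⟨1, M.one_mem, fun x => by rw [LinearMap.zero_apply, zero_smul, add_zero]; rfl⟩⟩
      smul_mem' := fun b γ h1 => ⟨by rw [LinearMap.smul_apply, h1.1, smul_zero], fun a => by
        rw [smul_smul]
        exact h1.2 _⟩ }
  have hA : ∀ γ : Dual F V, γ ∈ A ↔ γ z₀ = 0 ∧ ∀ a : F, TV M z₀ (a • γ) := fun γ => Iff.rfl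
  intro γ₀ hγ₀
  by_contra hcon
  have hγA : γ₀ ∉ A := by
    intro hm
    apply hcon
    have := hm.2 1
    rwa [one_smul] at this
  obtain ⟨Φ, hΦ1, hΦ2⟩ := exists_phi (K := F) hγA
  obtain ⟨z₁, hz₁⟩ : ∃ z₁ : V, ∀ γ : Dual F V, γ z₁ = Φ γ := ⟨(Module.evalEquiv F V).symm Φ, fun γ => by simp⟩
  have hz1γ : γ₀ z₁ = 1 := by rw [hz₁, hΦ1]
  have hz1A : ∀ γ ∈ A, γ z₁ = 0 := fun γ hγ => by rw [hz₁, hΦ2 γ hγ]
  have hZA : ∀ γ : Dual F V, (∀ x ∈ N₁ ⊓ N₂, γ x = 0) → γ ∈ A := fun γ hγ =>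
    ⟨hγ _ hz₀, fun a => h _ (fun x hx => by rw [LinearMap.smul_apply, hγ x hx, smul_zero])⟩
  have hz1Z : z₁ ∈ N₁ ⊓ N₂ := by
    by_contra hn
    obtain ⟨γ, h1, h2⟩ := exists_phi (K := F) hn
    have := hz1A γ (hZA γ h2)
    rw [h1] at this
    exact one_ne_zero this
  have hz1s : z₁ ∉ Submodule.span F {z₀} := by
    intro hm
    obtain ⟨a, ha⟩ := Submodule.mem_span_singleton.1 hm
    rw [← ha, map_smul, hγ₀, smul_zero] at hz1γ
    exact zero_ne_one hz1γ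
  obtain ⟨γ₁, hγ1, hγ0⟩ := exists_phi (K := F) hz1s
  have hγ0 := hγ0 z₀ (Submodule.mem_span_singleton_self _)
  obtain ⟨π, hπ1, hπ⟩ := c.exists_pi
  obtain ⟨φ, hφ⟩ := exists_lift (π := π) (by rw [hπ1]; exact one_ne_zero) γ₁
  obtain ⟨a, ha⟩ := (c.line z₀).1 hz₀.1
  obtain ⟨b, hb⟩ := (c.line z₁).1 hz1Z.1
  have e0 : π (a * φ u) = 0 := by rw [← hγ0, ← ha, ← hφ, map_smul, smul_eq_mul]
  have e1 : π (b * φ u) = 1 := by rw [← hγ1, ← hb, ← hφ, map_smul, smul_eq_mul]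
  have hc0 : φ u ≠ 0 := by
    intro h0
    rw [h0, mul_zero, map_zero] at e1
    exact zero_ne_one e1
  obtain ⟨hh, hhM, hhl, hhu⟩ := exists_move c.gen c.h2 c.u0 (smul_ne_zero (inv_ne_zero hc0) c.u0)
  have hinv : ∀ k : K, hh⁻¹ (k • u) = (k * φ u) • u := by
    intro k
    have : hh ((k * φ u) • u) = k • u := by
      rw [hhl, hhu, smul_smul, mul_assoc, mul_inv_cancel₀ hc0, mul_one]
    rw [← this, ia]
  have f0 : hh⁻¹ z₀ ∈ N₁ ⊓ N₂ := by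
    rw [← ha, hinv, c.pi_zero hπ]
    exact e0
  have f1 : hh⁻¹ z₁ ∉ N₁ ⊓ N₂ := by
    rw [← hb, hinv, c.pi_zero hπ, e1]
    exact one_ne_zero
  obtain ⟨y, hy⟩ := c.N1_ne_top
  have f2 : hh⁻¹ y ∉ N₁ ⊓ N₂ := by
    intro hm
    obtain ⟨k, hk⟩ := (c.line _).1 hm.1
    apply hy
    rw [c.line]
    refine ⟨k * (φ u)⁻¹, ?_⟩
    have := congrArg hh hk
    rw [ai, hhl, hhu, smul_smul] at this
    exact this
  obtain ⟨g', hg', hgZ', hgx'⟩ := c.tc f1 f2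
  have gM : hh * g' * hh⁻¹ ∈ M := M.mul_mem (M.mul_mem hhM hg') (M.inv_mem hhM)
  have gz0 : (hh * g' * hh⁻¹) z₀ = z₀ := by
    show hh (g' (hh⁻¹ z₀)) = z₀
    rw [hgZ' _ f0, ai]
  have gz1 : (hh * g' * hh⁻¹) z₁ = y := by
    show hh (g' (hh⁻¹ z₁)) = y
    rw [hgx', ai]
  generalize hh * g' * hh⁻¹ = g at *
  obtain ⟨γ, hγy, hγZ⟩ := exists_phi (K := F) (P := N₁ ⊓ N₂) (x := y) (fun h => hy h.1)
  have hmem : γ.comp (g : V →ₗ[F] V) ∈ A := by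
    rw [hA]
    refine ⟨?_, fun a => ?_⟩
    · show γ (g z₀) = 0
      rw [gz0]
      exact hγZ _ hz₀
    · have h3 := (h (a • γ) (fun x hx => by rw [LinearMap.smul_apply, hγZ x hx, smul_zero])).conj (M.inv_mem gM)
        (γ' := a • γ.comp (g : V →ₗ[F] V)) (fun x => by
          show a • γ (g (g⁻¹ x)) = a • γ x
          rw [ai])
      have h4 : g⁻¹ z₀ = z₀ := by
        nth_rewrite 1 [← gz0]
        exact ia g z₀
      rwa [h4] at h3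
  have h5 := hz1A _ hmem
  have h6 : γ (g z₁) = 0 := h5
  rw [gz1, hγy] at h6
  exact one_ne_zero h6

/-- all transvections -/
theorem Cfg.all [Finite F] [FiniteDimensional F K] [FiniteDimensional F V] (c : Cfg K M u N₁ N₂) {ρ : V ≃ₗ[F] V} (hρ : ρ ∈ M)
    (hρZ : ∀ z ∈ N₁ ⊓ N₂, ρ z = z) (hρ' : ∀ x, ρ x - x ∈ N₁ ⊓ N₂) (hne : ρ ≠ 1) (v : V) (γ : V →ₗ[F] F) (hγ : γ v = 0) : TV M v γ := by
  obtain ⟨z₀, hz₀, hz₀', h1⟩ := c.step_b hρ hρZ hρ' hne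
  have h2 := c.step_d hz₀ hz₀' (c.step_c hz₀ h1)
  by_cases hv : v = 0
  · exact ⟨1, M.one_mem, fun x => by rw [hv, smul_zero, add_zero]; rfl⟩
  obtain ⟨g, hg, -, hgv⟩ := exists_move c.gen c.h2 hz₀' hv
  have h3 := (h2 (γ.comp (g : V →ₗ[F] V)) (by show γ (g z₀) = 0; rw [hgv]; exact hγ)).conj hg (γ' := γ) (fun x => rfl)
  rwa [hgv] at h3

end Cfsg.Agent.H21.GUx
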