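import Mathlib
import Cfsg.Agent.GUx4

set_option autoImplicit false

/-! linear groups over extension fields of prime degree: existence of the unipotent element, generic case -/

namespace Cfsg.Agent.H21.GUx

open Module

variable {F K V : Type*} [Field F] [Field K] [Algebra F K] [AddCommGroup V] [Module F V] [Module K V] [IsScalarTower F K V]
variable {M : Subgroup (V ≃ₗ[F] V)} {u : V} {N₁ N₂ : Submodule F V}

theorem Cfg.fix1 (c : Cfg K M u N₁ N₂) {φ : V →ₗ[K] K} (hφ : φ u = 0) {z : V} (hz : z ∈ N₁) : φ z = 0 := by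
  obtain ⟨k, rfl⟩ := (c.line z).1 hz
  rw [map_smul, hφ, smul_zero]

theorem Cfg.exists_kappa [FiniteDimensional F K] [FiniteDimensional F V] (c : Cfg K M u N₁ N₂) : ∃ κ : K, κ ≠ 0 ∧ κ • u ∈ N₁ ⊓ N₂ := by
  have h1 : N₁ ⊓ N₂ ≠ ⊥ := by
    intro h0
    have h2 := c.fr
    rw [h0, finrank_bot] at h2
    have := c.prime.two_le
    omega
  obtain ⟨z, hz, hz0⟩ := (Submodule.ne_bot_iff _).1 h1
  obtain ⟨k, rfl⟩ := (c.line z).1 hz.1
  refine ⟨k, ?_, hz⟩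
  rintro rfl
  exact hz0 (zero_smul _ _)

/-- the elements attached to a point and an axis -/
theorem Cfg.tw [Finite F] [FiniteDimensional F K] [FiniteDimensional F V] (c : Cfg K M u N₁ N₂) {w : V} (hw : w ∉ N₁ ⊓ N₂)
    {γ : V →ₗ[F] F} (hγ : ∀ z ∈ N₁ ⊓ N₂, γ z = 0) (hγw : γ w = 0) :
    ∃ A : V →ₗ[F] V, (∀ x, A x - γ x • w ∈ N₁ ⊓ N₂) ∧ A w = 0 ∧ (∀ z ∈ N₁ ⊓ N₂, A z = 0) ∧
      ∀ a : F, ∃ h ∈ M, ∀ x, h x = x + a • A x := by
  obtain ⟨g, hg, hgZ, hgu⟩ := c.tc c.uZ hw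
  have hgZ' : ∀ z ∈ N₁ ⊓ N₂, g⁻¹ z = z := by
    intro z hz
    nth_rewrite 1 [← hgZ z hz]
    exact ia g z
  obtain ⟨φ, hφu, hφ⟩ := c.lift (γ := γ.comp (g : V →ₗ[F] V)) (fun x hx => by
    obtain ⟨a, ha⟩ := c.decomp hx
    have e : x = (x - a • u) + a • u := by abel
    rw [e, map_add]
    show γ (g (x - a • u)) + γ (g (a • u)) = 0
    rw [hgZ _ ha, hγ _ ha, map_smul, hgu, map_smul, hγw, smul_zero, add_zero])
  let A : V →ₗ[F] V := (g : V →ₗ[F] V).comp ((((LinearMap.toSpanSingleton K V u).restrictScalars F).comp (φ.restrictScalars F)).comp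
    ((g⁻¹ : V ≃ₗ[F] V) : V →ₗ[F] V))
  have hA : ∀ x, A x = g (φ (g⁻¹ x) • u) := fun x => rfl
  refine ⟨A, fun x => ?_, ?_, fun z hz => ?_, fun a => ?_⟩
  · have h1 := hφ (g⁻¹ x)
    have h2 := hgZ _ h1
    have h3 : (γ.comp (g : V →ₗ[F] V)) (g⁻¹ x) = γ x := by
      show γ (g (g⁻¹ x)) = _
      rw [ai]
    rw [h3] at h1 h2
    rw [map_sub, map_smul g (γ x), hgu] at h2
    rw [hA, h2]
    exact h1
  · rw [hA]
    have h1 : g⁻¹ w = u := by rw [← hgu]; exact ia g u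
    rw [h1, hφu, zero_smul, map_zero]
  · rw [hA, hgZ' z hz, c.fix1 hφu hz.1, zero_smul, map_zero]
  · obtain ⟨h, hh, hhx⟩ := c.gen.tr (φ := (algebraMap F K a) • φ) (w := u) (by rw [LinearMap.smul_apply, hφu, smul_zero])
    refine ⟨g * h * g⁻¹, M.mul_mem (M.mul_mem hg hh) (M.inv_mem hg), fun x => ?_⟩
    show g (h (g⁻¹ x)) = _
    rw [hhx, map_add, ai, hA, LinearMap.smul_apply, smul_assoc, algebraMap_smul, map_smul g a]

/-- the generic case -/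
theorem Cfg.exists_rho [Finite F] [FiniteDimensional F K] [FiniteDimensional F V] (c : Cfg K M u N₁ N₂)
    (hdim : finrank F K + 3 ≤ finrank F V) :
    ∃ ρ ∈ M, (∀ z ∈ N₁ ⊓ N₂, ρ z = z) ∧ (∀ x, ρ x - x ∈ N₁ ⊓ N₂) ∧ ρ ≠ 1 := by
  obtain ⟨w, hw⟩ := c.N1_ne_top
  obtain ⟨κ, hκ0, hκ⟩ := c.exists_kappa
  obtain ⟨π, hπ1, hπ⟩ := c.exists_pi
  have hwP : w ∉ Submodule.span K {u} := fun h => hw ((c.line w).2 (Submodule.mem_span_singleton.1 h))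
  obtain ⟨φ₀, hφ₀w, hφ₀⟩ := exists_phi hwP
  obtain ⟨φ, hφd⟩ : ∃ φ : V →ₗ[K] K, φ = κ • φ₀ := ⟨_, rfl⟩
  have hφu : φ u = 0 := by rw [hφd, LinearMap.smul_apply, hφ₀ u (Submodule.mem_span_singleton_self u), smul_zero]
  have hφw : φ w = κ := by rw [hφd, LinearMap.smul_apply, hφ₀w, smul_eq_mul, mul_one]
  obtain ⟨γ, hγd⟩ : ∃ γ : V →ₗ[F] F, ∀ x, γ x = π (φ x) := ⟨π.comp (φ.restrictScalars F), fun _ => rfl⟩
  have hγw : γ w = 0 := by rw [hγd, hφw]; exact (c.pi_zero hπ).1 hκ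
  have hγ1 : ∀ x ∈ N₁, γ x = 0 := fun x hx => by rw [hγd, c.fix1 hφu hx, map_zero]
  obtain ⟨x₁, hx₁, hx₁'⟩ : ∃ x, γ x = 0 ∧ x ∉ N₁ ⊔ Submodule.span F {w} := by
    by_contra hcon
    push Not at hcon
    have h1 : LinearMap.ker γ ≤ N₁ ⊔ Submodule.span F {w} := fun x hx => hcon x hx
    have h2 := Submodule.finrank_mono h1
    have h3 := LinearMap.finrank_range_add_finrank_ker γ
    have h4 : finrank F (LinearMap.range γ) ≤ 1 := by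
      have := Submodule.finrank_le (LinearMap.range γ)
      rwa [Module.finrank_self] at this
    have h5 := Submodule.finrank_add_le_finrank_add_finrank N₁ (Submodule.span F {w})
    have h6 : finrank F (Submodule.span F ({w} : Set V)) ≤ 1 := by
      have := finrank_span_le_card (R := F) ({w} : Set V)
      simpa using this
    rw [c.mb1.finrank] at h5
    omega
  obtain ⟨γ', hγ'1, hγ'⟩ := exists_phi (K := F) hx₁'
  have hγ'w : γ' w = 0 := hγ' w (Submodule.mem_sup_right (Submodule.mem_span_singleton_self w))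
  have hγ'N : ∀ x ∈ N₁, γ' x = 0 := fun x hx => hγ' x (Submodule.mem_sup_left hx)
  have hwZ : w ∉ N₁ ⊓ N₂ := fun h => hw h.1
  obtain ⟨A, hA1, hA2, hA3, hA4⟩ := c.tw hwZ (fun z hz => hγ'N z hz.1) hγ'w
  obtain ⟨h₂, hh₂, hh₂x⟩ := hA4 1
  simp only [one_smul] at hh₂x
  obtain ⟨h₁, hh₁, hh₁x⟩ := c.gen.tr hφu
  have hf1 : ∀ z ∈ N₁ ⊓ N₂, h₁ z = z := fun z hz => by rw [hh₁x, c.fix1 hφu hz.1, zero_smul, add_zero]
  have hf2 : ∀ z ∈ N₁ ⊓ N₂, h₂ z = z := fun z hz => by rw [hh₂x, hA3 z hz, add_zero]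
  have hinvf : ∀ g : V ≃ₗ[F] V, (∀ z ∈ N₁ ⊓ N₂, g z = z) → ∀ z ∈ N₁ ⊓ N₂, g⁻¹ z = z := by
    intro g hg z hz
    nth_rewrite 1 [← hg z hz]
    exact ia g z
  have hφh2 : ∀ y, φ (h₂ y) = φ y + γ' y • κ := by
    intro y
    rw [hh₂x, map_add]
    have h1 := c.fix1 hφu (hA1 y).1
    rw [map_sub, sub_eq_zero] at h1
    rw [h1, ← algebraMap_smul K (γ' y) w, map_smul, hφw, algebraMap_smul]
  have hAh1 : ∀ y, A (h₁ y) - A y ∈ N₁ ⊓ N₂ := by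
    intro y
    have h1 := hA1 (φ y • u)
    rw [hγ'N _ ((c.line _).2 ⟨_, rfl⟩), zero_smul, sub_zero] at h1
    rw [hh₁x, map_add, add_sub_cancel_left]
    exact h1
  have hdiff : ∀ y, h₁ (h₂ y) - h₂ (h₁ y) ∈ N₁ ⊓ N₂ := by
    intro y
    have e : h₁ (h₂ y) - h₂ (h₁ y) = γ' y • (κ • u) - (A (h₁ y) - A y) := by
      rw [hh₁x (h₂ y), hφh2, hh₂x (h₁ y)]
      nth_rewrite 1 [hh₂x]
      nth_rewrite 1 [hh₁x]
      rw [add_smul, smul_assoc]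
      abel
    rw [e]
    exact (N₁ ⊓ N₂).sub_mem ((N₁ ⊓ N₂).smul_mem _ hκ) (hAh1 y)
  refine ⟨h₁ * h₂ * (h₂ * h₁)⁻¹, M.mul_mem (M.mul_mem hh₁ hh₂) (M.inv_mem (M.mul_mem hh₂ hh₁)), fun z hz => ?_, fun x => ?_, fun h => ?_⟩
  · have h1 : (h₂ * h₁)⁻¹ z = z := hinvf _ (fun z hz => by show h₂ (h₁ z) = z; rw [hf1 z hz, hf2 z hz]) z hz
    show h₁ (h₂ ((h₂ * h₁)⁻¹ z)) = z
    rw [h1, hf2 z hz, hf1 z hz]
  · have h1 := hdiff ((h₂ * h₁)⁻¹ x)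
    have h2 : h₂ (h₁ ((h₂ * h₁)⁻¹ x)) = x := ai (h₂ * h₁) x
    rw [h2] at h1
    exact h1
  · have h1 : ∀ y, h₁ (h₂ y) = h₂ (h₁ y) := by
      intro y
      have h3 : h₁ * h₂ = h₂ * h₁ := mul_inv_eq_one.1 h
      exact congrArg (fun g : V ≃ₗ[F] V => g y) h3
    have h3 := h1 x₁
    have h4 : φ x₁ • u ∈ N₁ ⊓ N₂ := by
      rw [c.pi_zero hπ, ← hγd]
      exact hx₁
    rw [hh₁x (h₂ x₁), hφh2, hh₁x x₁, map_add h₂ x₁, hf2 _ h4, hγ'1, one_smul, add_smul, ← add_assoc, add_eq_left] at h3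
    exact hκ0 ((smul_eq_zero.1 h3).resolve_right c.u0)

end Cfsg.Agent.H21.GUx
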