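import Mathlib
import Cfsg.Agent.GUx5

set_option autoImplicit false

/-! linear groups over extension fields of prime degree: the exceptional case -/

namespace Cfsg.Agent.H21.GUx

open Module

variable {F K V : Type*} [Field F] [Field K] [Algebra F K] [AddCommGroup V] [Module F V] [Module K V] [IsScalarTower F K V]
variable {M : Subgroup (V ≃ₗ[F] V)} {u : V} {N₁ N₂ : Submodule F V}

/-- uniqueness -/
theorem uniq {Z : Submodule F V} (hR : ∀ ρ ∈ M, (∀ z ∈ Z, ρ z = z) → (∀ x, ρ x - x ∈ Z) → ρ = 1) {h h' : V ≃ₗ[F] V} (hh : h ∈ M)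
    (hh' : h' ∈ M) (hZ : ∀ z ∈ Z, h z = z) (hZ' : ∀ z ∈ Z, h' z = z) (hd : ∀ x, h x - h' x ∈ Z) : h = h' := by
  apply mul_inv_eq_one.1
  refine hR _ (M.mul_mem hh (M.inv_mem hh')) (fun z hz => ?_) (fun x => ?_)
  · show h (h'⁻¹ z) = z
    have : h'⁻¹ z = z := by
      nth_rewrite 1 [← hZ' z hz]
      exact ia h' z
    rw [this, hZ z hz]
  · have h1 := hd (h'⁻¹ x)
    rw [ai] at h1
    exact h1

/-- if there is no such element then the field has two elements -/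
theorem Cfg.two [Finite F] [FiniteDimensional F K] [FiniteDimensional F V] (c : Cfg K M u N₁ N₂)
    (hR : ∀ ρ ∈ M, (∀ z ∈ N₁ ⊓ N₂, ρ z = z) → (∀ x, ρ x - x ∈ N₁ ⊓ N₂) → ρ = 1) : ∀ a : F, a * a = a := by
  obtain ⟨w, hw⟩ := c.N1_ne_top
  obtain ⟨κ, hκ0, hκ⟩ := c.exists_kappa
  obtain ⟨π, hπ1, hπ⟩ := c.exists_pi
  have hwP : w ∉ Submodule.span K {u} := fun h => hw ((c.line w).2 (Submodule.mem_span_singleton.1 h))
  obtain ⟨φ₀, hφ₀w, hφ₀⟩ := exists_phi hwP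
  obtain ⟨φ, hφd⟩ : ∃ φ : V →ₗ[K] K, φ = κ • φ₀ := ⟨_, rfl⟩
  have hφu : φ u = 0 := by rw [hφd, LinearMap.smul_apply, hφ₀ u (Submodule.mem_span_singleton_self u), smul_zero]
  have hφw : φ w = κ := by rw [hφd, LinearMap.smul_apply, hφ₀w, smul_eq_mul, mul_one]
  obtain ⟨γ, hγd⟩ : ∃ γ : V →ₗ[F] F, ∀ x, γ x = π (φ x) := ⟨π.comp (φ.restrictScalars F), fun _ => rfl⟩
  have hγw : γ w = 0 := by rw [hγd, hφw]; exact (c.pi_zero hπ).1 hκ
  have hγ1 : ∀ x ∈ N₁, γ x = 0 := fun x hx => by rw [hγd, c.fix1 hφu hx, map_zero]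
  have hγZ : ∀ x ∈ N₁ ⊓ N₂, γ x = 0 := fun x hx => hγ1 x hx.1
  have hφZ : ∀ x ∈ N₁ ⊓ N₂, φ x = 0 := fun x hx => c.fix1 hφu hx.1
  have hwZ : w ∉ N₁ ⊓ N₂ := fun h => hw h.1
  have huwZ : u + w ∉ N₁ ⊓ N₂ := fun h => hw ((N₁.add_mem_iff_right c.u1).1 h.1)
  obtain ⟨A, hA1, -, hA3, hA4⟩ := c.tw hwZ hγZ hγw
  obtain ⟨B, hB1, -, hB3, hB4⟩ := c.tw huwZ hγZ (by rw [map_add, hγ1 u c.u1, hγw, add_zero])
  have hφA : ∀ x, φ (A x) = γ x • κ := by
    intro x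
    have h1 := hφZ _ (hA1 x)
    rw [map_sub, sub_eq_zero] at h1
    rw [h1, ← algebraMap_smul K (γ x) w, map_smul, hφw, algebraMap_smul]
  have key : ∀ (a : F) x, a • A x + a • (φ x • u) + (a * a) • (γ x • (κ • u)) = a • B x := by
    intro a x
    obtain ⟨h₂, hh₂, hh₂x⟩ := hA4 a
    obtain ⟨h₃, hh₃, hh₃x⟩ := hB4 a
    obtain ⟨h₁, hh₁, hh₁x⟩ := c.gen.tr (φ := (algebraMap F K a) • φ) (w := u) (by rw [LinearMap.smul_apply, hφu, smul_zero])
    have hh₁x' : ∀ x, h₁ x = x + a • (φ x • u) := by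
      intro x
      rw [hh₁x, LinearMap.smul_apply, smul_assoc, algebraMap_smul]
    have hcomp : ∀ x, h₁ (h₂ x) = x + (a • A x + a • (φ x • u) + (a * a) • (γ x • (κ • u))) := by
      intro x
      rw [hh₁x', hh₂x, map_add, ← algebraMap_smul K a (A x), map_smul, algebraMap_smul, hφA, add_smul, smul_eq_mul]
      have e : (algebraMap F K a * γ x • κ) • u = a • (γ x • (κ • u)) := by
        rw [← smul_eq_mul, algebraMap_smul, smul_assoc, smul_assoc]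
      rw [e, smul_add, smul_smul a a]
      abel
    have heq : h₁ * h₂ = h₃ := by
      refine uniq hR (M.mul_mem hh₁ hh₂) hh₃ (fun z hz => ?_) (fun z hz => ?_) (fun x => ?_)
      · show h₁ (h₂ z) = z
        rw [hcomp, hA3 z hz, hφZ z hz, hγZ z hz]
        simp
      · rw [hh₃x, hB3 z hz, smul_zero, add_zero]
      · show h₁ (h₂ x) - h₃ x ∈ _
        rw [hcomp, hh₃x]
        have h1 : φ x • u - γ x • u ∈ N₁ ⊓ N₂ := by rw [hγd]; exact hπ _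
        have e : x + (a • A x + a • (φ x • u) + (a * a) • (γ x • (κ • u))) - (x + a • B x) =
            a • (A x - γ x • w) + a • (φ x • u - γ x • u) + (a * a) • (γ x • (κ • u)) - a • (B x - γ x • (u + w)) := by
          simp only [smul_sub, smul_add]
          abel
        rw [e]
        exact (N₁ ⊓ N₂).sub_mem ((N₁ ⊓ N₂).add_mem ((N₁ ⊓ N₂).add_mem ((N₁ ⊓ N₂).smul_mem _ (hA1 x)) ((N₁ ⊓ N₂).smul_mem _ h1))
          ((N₁ ⊓ N₂).smul_mem _ ((N₁ ⊓ N₂).smul_mem _ hκ))) ((N₁ ⊓ N₂).smul_mem _ (hB1 x))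
    have h1 := congrArg (fun g : V ≃ₗ[F] V => g x) heq
    have h2 : h₁ (h₂ x) = h₃ x := h1
    rw [hcomp, hh₃x] at h2
    exact add_left_cancel h2
  intro a
  obtain ⟨x, hx⟩ : ∃ x, φ x = 1 := ⟨κ⁻¹ • w, by rw [map_smul, hφw, smul_eq_mul, inv_mul_cancel₀ hκ0]⟩
  have hγx : γ x = 1 := by rw [hγd, hx, hπ1]
  have h1 := key a x
  have h2 := key 1 x
  rw [one_smul F (B x)] at h2
  rw [← h2, hγx, hx] at h1
  simp only [one_smul, mul_one, smul_add] at h1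
  have h3 := add_left_cancel h1
  have h4 : (a * a - a) • (κ • u) = 0 := by rw [sub_smul, h3, sub_self]
  have h5 : κ • u ≠ 0 := smul_ne_zero hκ0 c.u0
  exact sub_eq_zero.1 ((smul_eq_zero.1 h4).resolve_right h5)

end Cfsg.Agent.H21.GUx
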