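import Mathlib
import Cfsg.Agent.GUx6

set_option autoImplicit false

/-! linear groups over extension fields of prime degree: the exceptional case, II -/

namespace Cfsg.Agent.H21.GUx

open Module

variable {F K V : Type*} [Field F] [Field K] [Algebra F K] [AddCommGroup V] [Module F V] [Module K V] [IsScalarTower F K V]
variable {M : Subgroup (V ≃ₗ[F] V)} {u : V} {N₁ N₂ : Submodule F V}

set_option maxHeartbeats 1000000 in
theorem Cfg.exists_rho' [Finite F] [FiniteDimensional F K] [FiniteDimensional F V] (c : Cfg K M u N₁ N₂)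
    (hr2 : finrank F K = 2) (hn : finrank F V = 4) :
    ∃ ρ ∈ M, (∀ z ∈ N₁ ⊓ N₂, ρ z = z) ∧ (∀ x, ρ x - x ∈ N₁ ⊓ N₂) ∧ ρ ≠ 1 := by
  by_contra hcon
  have hR : ∀ ρ ∈ M, (∀ z ∈ N₁ ⊓ N₂, ρ z = z) → (∀ x, ρ x - x ∈ N₁ ⊓ N₂) → ρ = 1 := by
    intro ρ h1 h2 h3
    by_contra h4
    exact hcon ⟨ρ, h1, h2, h3, h4⟩
  have h2 := c.two hR
  have hchar : (1 : F) + 1 = 0 := by
    have := h2 (-1)
    linear_combination this
  have hF : ∀ a : F, a = 0 ∨ a = 1 := by
    intro a
    have h3 : a * (a - 1) = 0 := by linear_combination h2 a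
    rcases mul_eq_zero.1 h3 with h | h
    · left; exact h
    · right; exact sub_eq_zero.1 h
  have hcF : Nat.card F = 2 := by
    rw [Nat.card_eq_two_iff]
    refine ⟨0, 1, zero_ne_one, ?_⟩
    ext a
    simpa using hF a
  have dV : ∀ v : V, v + v = 0 := by
    intro v
    have : ((1 : F) + 1) • v = 0 := by rw [hchar, zero_smul]
    rwa [add_smul, one_smul] at this
  have dK : ∀ k : K, k + k = 0 := by
    intro k
    have : ((1 : F) + 1) • k = 0 := by rw [hchar, zero_smul]
    rwa [add_smul, one_smul] at this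
  haveI : Finite K := Module.finite_of_finite F
  haveI : Fintype K := Fintype.ofFinite K
  have hcK : Nat.card K = 4 := by
    rw [Module.natCard_eq_pow_finrank (K := F) (V := K), hcF, hr2]
    norm_num
  have hp4 : ∀ k : K, k ^ 4 = k := by
    intro k
    have := FiniteField.pow_card k
    rwa [← Nat.card_eq_fintype_card, hcK] at this
  obtain ⟨w, hw⟩ := c.N1_ne_top
  obtain ⟨κ, hκ0, hκ⟩ := c.exists_kappa
  obtain ⟨π, hπ1, hπ⟩ := c.exists_pi
  have hκ1 : κ ≠ 1 := by
    rintro rfl
    rw [one_smul] at hκ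
    exact c.uZ hκ
  have hκ2 : κ * κ = κ + 1 := by
    have h3 : κ * ((κ - 1) * (κ * κ + κ + 1)) = 0 := by linear_combination hp4 κ
    have h4 := ((mul_eq_zero.1 ((mul_eq_zero.1 h3).resolve_left hκ0)).resolve_left (sub_ne_zero.2 hκ1))
    linear_combination h4 - dK (κ + 1)
  have hK : ∀ k : K, k = 0 ∨ k = 1 ∨ k = κ ∨ k = κ + 1 := by
    intro k
    have h3 : k * ((k - 1) * ((k - κ) * (k - (κ + 1)))) = 0 := by
      have := dK (k * κ)
      have h4 := dK κ
      linear_combination hp4 k + (k * (k - 1)) * hκ2 - (k * (k - 1)) * dK (k * κ) + (k * (k-1)) * dK κ - (k * (k - 1)) * dK k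
    rcases mul_eq_zero.1 h3 with h | h
    · left; exact h
    rcases mul_eq_zero.1 h with h | h
    · right; left; exact sub_eq_zero.1 h
    rcases mul_eq_zero.1 h with h | h
    · right; right; left; exact sub_eq_zero.1 h
    · right; right; right; exact sub_eq_zero.1 h
  have hπκ : π κ = 0 := (c.pi_zero hπ).1 hκ
  have hZ : ∀ z ∈ N₁ ⊓ N₂, z = 0 ∨ z = κ • u := by
    intro z hz
    obtain ⟨k, rfl⟩ := (c.line z).1 hz.1
    have h3 := (c.pi_zero hπ).1 hz
    rcases hK k with rfl | rfl | rfl | rfl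
    · left; exact zero_smul _ _
    · rw [hπ1] at h3
      exact absurd h3 one_ne_zero
    · right; rfl
    · rw [map_add, hπκ, hπ1, zero_add] at h3
      exact absurd h3 one_ne_zero
  have hwP : w ∉ Submodule.span K {u} := fun h => hw ((c.line w).2 (Submodule.mem_span_singleton.1 h))
  have huP : u ∉ Submodule.span K {w} := by
    intro h
    obtain ⟨k, hk⟩ := Submodule.mem_span_singleton.1 h
    have hk0 : k ≠ 0 := by
      rintro rfl
      rw [zero_smul] at hk
      exact c.u0 hk.symm
    apply hwP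
    exact Submodule.mem_span_singleton.2 ⟨k⁻¹, by rw [← hk, smul_smul, inv_mul_cancel₀ hk0, one_smul]⟩
  obtain ⟨φ, hφw, hφ⟩ := exists_phi hwP
  obtain ⟨ψ, hψu, hψ⟩ := exists_phi huP
  have hφu : φ u = 0 := hφ u (Submodule.mem_span_singleton_self u)
  have hψw : ψ w = 0 := hψ w (Submodule.mem_span_singleton_self w)
  have hgen : ∀ v : V, ∃ x y : K, v = x • u + y • w := by
    haveI : FiniteDimensional K V := FiniteDimensional.right F K V
    have h3 : finrank K V = 2 := by
      have := Module.finrank_mul_finrank F K V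
      rw [hr2, hn] at this
      omega
    have hli : LinearIndependent K ![u, w] := by
      rw [LinearIndependent.pair_iff]
      intro a b hab
      have h4 := congrArg φ hab
      have h5 := congrArg ψ hab
      rw [map_add, map_smul, map_smul, hφu, hφw, map_zero, smul_zero, zero_add, smul_eq_mul, mul_one] at h4
      rw [map_add, map_smul, map_smul, hψu, hψw, map_zero, smul_zero, add_zero, smul_eq_mul, mul_one] at h5
      exact ⟨h5, h4⟩
    have h4 := finrank_span_eq_card hli
    rw [Fintype.card_fin, Matrix.range_cons_cons_empty] at h4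
    have h5 : Submodule.span K ({u, w} : Set V) = ⊤ := Submodule.eq_top_of_finrank_eq (h4.trans h3.symm)
    intro v
    have h6 : v ∈ Submodule.span K ({u, w} : Set V) := by rw [h5]; trivial
    obtain ⟨x, y, h7⟩ := Submodule.mem_span_pair.1 h6
    exact ⟨x, y, h7.symm⟩
  -- the diagonal elements and the swap
  have hD : ∀ k : K, k ≠ 0 → ∃ d ∈ M, (∀ (a : K), d (a • u) = a • u) ∧ ∀ a : K, d (a • w) = (a * k) • w := by
    intro k hk
    obtain ⟨g, hg, hgx⟩ := c.gen φ ((k - 1) • w) k hk (by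
      rw [hcF, map_smul, hφw, smul_eq_mul, mul_one, pow_one, add_sub_cancel])
    refine ⟨g, hg, fun a => ?_, fun a => ?_⟩
    · rw [hgx, map_smul, hφu, smul_zero, zero_smul, add_zero]
    · rw [hgx, map_smul, hφw, smul_eq_mul, mul_one, smul_smul, ← add_smul]
      congr 1
      ring
  have hE : ∀ k : K, k ≠ 0 → ∃ d ∈ M, (∀ (a : K), d (a • u) = (a * k) • u) ∧ ∀ a : K, d (a • w) = a • w := by
    intro k hk
    obtain ⟨g, hg, hgx⟩ := c.gen ψ ((k - 1) • u) k hk (by
      rw [hcF, map_smul, hψu, smul_eq_mul, mul_one, pow_one, add_sub_cancel])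
    refine ⟨g, hg, fun a => ?_, fun a => ?_⟩
    · rw [hgx, map_smul, hψu, smul_eq_mul, mul_one, smul_smul, ← add_smul]
      congr 1
      ring
    · rw [hgx, map_smul, hψw, smul_zero, zero_smul, add_zero]
  obtain ⟨S, hS, hSu, hSw⟩ : ∃ S ∈ M, (∀ a : K, S (a • u) = a • w) ∧ ∀ a : K, S (a • w) = a • u := by
    obtain ⟨g, hg, hgx⟩ := c.gen.tr (φ := φ + ψ) (w := u + w) (by
      rw [LinearMap.add_apply, map_add, map_add, hφu, hφw, hψu, hψw, zero_add, add_zero, dK])
    refine ⟨g, hg, fun a => ?_, fun a => ?_⟩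
    · rw [hgx, LinearMap.add_apply, map_smul, map_smul, hφu, hψu, smul_zero, zero_add, smul_eq_mul, mul_one, smul_add, ← add_assoc, dV,
        zero_add]
    · rw [hgx, LinearMap.add_apply, map_smul, map_smul, hφw, hψw, smul_zero, add_zero, smul_eq_mul, mul_one, smul_add, add_comm, add_assoc,
        dV, add_zero]
  -- no element of M is close to the identity
  have tv : ∀ t ∈ M, ∀ p : V, (t u = u ∨ t u = u + p) → (t (κ • u) = κ • u ∨ t (κ • u) = κ • u + p) → (t w = w ∨ t w = w + p) →
      (t (κ • w) = κ • w ∨ t (κ • w) = κ • w + p) → t = 1 := by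
    intro t ht p h1 h3 h4 h5
    have hadd : ∀ x y : V, (t x = x ∨ t x = x + p) → (t y = y ∨ t y = y + p) → (t (x + y) = x + y ∨ t (x + y) = x + y + p) := by
      rintro x y (hx | hx) (hy | hy)
      · left; rw [map_add, hx, hy]
      · right; rw [map_add, hx, hy, add_assoc]
      · right; rw [map_add, hx, hy]; abel
      · left
        rw [map_add, hx, hy]
        have e : x + p + (y + p) = x + y + (p + p) := by abel
        rw [e, dV, add_zero]
    have hz : t 0 = 0 ∨ t 0 = 0 + p := Or.inl (map_zero t)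
    have hline : ∀ v : V, (t v = v ∨ t v = v + p) → (t (κ • v) = κ • v ∨ t (κ • v) = κ • v + p) → ∀ k : K,
        (t (k • v) = k • v ∨ t (k • v) = k • v + p) := by
      intro v ha hb k
      rcases hK k with rfl | rfl | rfl | rfl
      · rw [zero_smul]; exact hz
      · rw [one_smul]; exact ha
      · exact hb
      · rw [add_smul, one_smul]
        exact hadd _ _ hb ha
    have hall : ∀ v : V, t v = v ∨ t v = v + p := by
      intro v
      obtain ⟨x, y, rfl⟩ := hgen v
      exact hadd _ _ (hline u h1 h3 x) (hline w h4 h5 y)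
    by_cases hp : p = 0
    · apply LinearEquiv.ext
      intro v
      rcases hall v with h | h
      · exact h
      · rw [hp, add_zero] at h
        exact h
    · have hκu : κ • u ≠ 0 := smul_ne_zero hκ0 c.u0
      obtain ⟨g, hg, -, hgp⟩ := exists_move c.gen c.h2 hp hκu
      have hρ : g * t * g⁻¹ ∈ M := M.mul_mem (M.mul_mem hg ht) (M.inv_mem hg)
      have hρx : ∀ x, (g * t * g⁻¹) x = x ∨ (g * t * g⁻¹) x = x + κ • u := by
        intro x
        show g (t (g⁻¹ x)) = x ∨ g (t (g⁻¹ x)) = x + κ • u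
        rcases hall (g⁻¹ x) with h | h
        · left; rw [h, ai]
        · right; rw [h, map_add, ai, hgp]
      have h6 := hR _ hρ (fun z hz => by
        rcases hZ z hz with rfl | rfl
        · exact map_zero _
        · rcases hρx (κ • u) with h | h
          · exact h
          · exfalso
            rw [dV] at h
            have h7 := (g * t * g⁻¹).injective (h.trans (map_zero _).symm)
            exact hκu h7) (fun x => by
        rcases hρx x with h | h
        · rw [h, sub_self]; exact Submodule.zero_mem _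
        · rw [h, add_sub_cancel_left]; exact hκ)
      have h7 : g * t = g := by rwa [mul_inv_eq_one] at h6
      exact mul_eq_left.1 h7
  -- the element attached to w
  obtain ⟨γ, hγu, hγ⟩ := exists_phi (K := F) (P := (N₁ ⊓ N₂) ⊔ (Submodule.span K {w}).restrictScalars F) (x := u) (by
    intro hm
    obtain ⟨z, hz, y, hy, hzy⟩ := Submodule.mem_sup.1 hm
    obtain ⟨k, rfl⟩ := Submodule.mem_span_singleton.1 hy
    have h3 := congrArg φ hzy
    rw [map_add, c.fix1 hφu hz.1, map_smul, hφw, hφu, zero_add, smul_eq_mul, mul_one] at h3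
    rw [h3, zero_smul, add_zero] at hzy
    rw [hzy] at hz
    exact c.uZ hz)
  have hγZ : ∀ z ∈ N₁ ⊓ N₂, γ z = 0 := fun z hz => hγ z (Submodule.mem_sup_left hz)
  have hγw : ∀ k : K, γ (k • w) = 0 := fun k => hγ _ (Submodule.mem_sup_right (Submodule.smul_mem _ _ (Submodule.mem_span_singleton_self w)))
  have hwZ : w ∉ N₁ ⊓ N₂ := fun h => hw h.1
  obtain ⟨A, hA1, hA2, hA3, hA4⟩ := c.tw hwZ hγZ (by have := hγw 1; rwa [one_smul] at this)
  obtain ⟨β, hβ, hβx⟩ := hA4 1
  simp only [one_smul] at hβx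
  obtain ⟨d, hd, hdu, hdw⟩ := hD κ hκ0
  have hdinv : ∀ a : K, d⁻¹ (a • u) = a • u := by
    intro a
    nth_rewrite 1 [← hdu a]
    exact ia d _
  have hdZ : ∀ z ∈ N₁ ⊓ N₂, d z = z := by
    intro z hz
    obtain ⟨k, rfl⟩ := (c.line z).1 hz.1
    exact hdu k
  have hdZ' : ∀ z ∈ N₁ ⊓ N₂, d⁻¹ z = z := by
    intro z hz
    obtain ⟨k, rfl⟩ := (c.line z).1 hz.1
    exact hdinv k
  have hγd : ∀ x, γ (d x) = γ x := by
    intro x
    obtain ⟨a, b, rfl⟩ := hgen x
    rw [map_add, map_add, map_add, hdu, hdw, hγw, hγw]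
  have hγd' : ∀ x, γ (d⁻¹ x) = γ x := by
    intro x
    rw [← hγd, ai]
  have hβZ : ∀ z ∈ N₁ ⊓ N₂, β z = z := fun z hz => by rw [hβx, hA3 z hz, add_zero]
  have hAw : A (κ • w) ∈ N₁ ⊓ N₂ := by
    have := hA1 (κ • w)
    rwa [hγw, zero_smul, sub_zero] at this
  have hdAmod : ∀ y, d (A y) - γ y • (κ • w) ∈ N₁ ⊓ N₂ := by
    intro y
    have h1 := hA1 y
    have h3 := hdZ _ h1
    have h4 := hdw 1
    rw [one_smul, one_mul] at h4
    rw [map_sub, map_smul d, h4] at h3
    rw [h3]
    exact h1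
  have hAk : ∀ y, A (d (A y)) ∈ N₁ ⊓ N₂ := by
    intro y
    have h1 := hA3 _ (hdAmod y)
    rw [map_sub, map_smul A, sub_eq_zero] at h1
    rw [h1]
    exact Submodule.smul_mem _ _ hAw
  have hrel : β * (d * β * d⁻¹) = (d * (d * β * d⁻¹) * d⁻¹) := by
    have m1 : d * β * d⁻¹ ∈ M := M.mul_mem (M.mul_mem hd hβ) (M.inv_mem hd)
    refine uniq hR (M.mul_mem hβ m1) (M.mul_mem (M.mul_mem hd m1) (M.inv_mem hd)) (fun z hz => ?_) (fun z hz => ?_) (fun x => ?_)
    · show β (d (β (d⁻¹ z))) = z
      rw [hdZ' z hz, hβZ z hz, hdZ z hz, hβZ z hz]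
    · show d (d (β (d⁻¹ (d⁻¹ z)))) = z
      rw [hdZ' z hz, hdZ' z hz, hβZ z hz, hdZ z hz, hdZ z hz]
    · show β (d (β (d⁻¹ x))) - d (d (β (d⁻¹ (d⁻¹ x)))) ∈ _
      have e1 : d (β (d⁻¹ x)) = x + d (A (d⁻¹ x)) := by rw [hβx, map_add, ai]
      have e2 : β (x + d (A (d⁻¹ x))) = x + d (A (d⁻¹ x)) + (A x + A (d (A (d⁻¹ x)))) := by rw [hβx, map_add]
      have e3 : d (d (β (d⁻¹ (d⁻¹ x)))) = x + d (d (A (d⁻¹ (d⁻¹ x)))) := by rw [hβx, map_add, map_add, ai, ai]
      rw [e1, e2, e3]
      have f1 := hdAmod (d⁻¹ x)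
      rw [hγd'] at f1
      have f2 := hdAmod (d⁻¹ (d⁻¹ x))
      have f3 := hdZ _ f2
      rw [hγd', hγd'] at f2 f3
      have h4 := hdw κ
      rw [map_sub, map_smul d (γ x), h4, hκ2] at f3
      have f4 : d (d (A (d⁻¹ (d⁻¹ x)))) - γ x • ((κ + 1) • w) ∈ N₁ ⊓ N₂ := by
        rw [f3]; exact f2
      have f5 := hA1 x
      have e : x + d (A (d⁻¹ x)) + (A x + A (d (A (d⁻¹ x)))) - (x + d (d (A (d⁻¹ (d⁻¹ x))))) =
          (d (A (d⁻¹ x)) - γ x • (κ • w)) + (A x - γ x • w) + A (d (A (d⁻¹ x))) - (d (d (A (d⁻¹ (d⁻¹ x)))) - γ x • ((κ + 1) • w)) := by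
        rw [add_smul, one_smul, smul_add]
        abel
      rw [e]
      exact Submodule.sub_mem _ (Submodule.add_mem _ (Submodule.add_mem _ f1 f5) (hAk _)) f4
  have hu1 : A (κ • w) = A u - w := by
    have h1 : β (d (β (d⁻¹ u))) = d (d (β (d⁻¹ (d⁻¹ u)))) := congrArg (fun g : V ≃ₗ[F] V => g u) hrel
    have hdu1 : d⁻¹ u = u := by have := hdinv 1; rwa [one_smul] at this
    have hdu2 : d u = u := by have := hdu 1; rwa [one_smul] at this
    have hdw1 : d w = κ • w := by have := hdw 1; rwa [one_smul, one_mul] at this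
    have hAu := hA1 u
    rw [hγu, one_smul] at hAu
    obtain ⟨z, hz⟩ : ∃ z, z = A u - w := ⟨_, rfl⟩
    rw [← hz] at hAu
    have hAu' : A u = w + z := by rw [hz]; abel
    have hdκ := hdw κ
    have f1 : d (u + (w + z)) = u + (κ • w + z) := by rw [map_add, map_add, hdu2, hdw1, hdZ z hAu]
    have f2 : β (u + (κ • w + z)) = u + (κ • w + z) + (w + z + (A (κ • w) + 0)) := by
      rw [hβx, map_add A, map_add A, hAu', hA3 z hAu]
    have f3 : d (u + (κ • w + z)) = u + (κ • w + w + z) := by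
      rw [map_add, map_add, hdu2, hdκ, hκ2, add_smul, one_smul, hdZ z hAu]
    rw [hdu1, hdu1, hβx u, hAu', f1, f2, f3] at h1
    rw [← hz]
    have e : A (κ • w) = (u + (κ • w + z) + (w + z + (A (κ • w) + 0))) - (u + (κ • w + w + z)) - z := by abel
    rw [e, h1]
    have := dV z
    have e2 : (u + (κ • w + w + z)) - (u + (κ • w + w + z)) - z = z - (z + z) := by abel
    rw [e2, this, sub_zero]
  have hAu := hA1 u
  rw [hγu, one_smul] at hAu
  have hw0 : w ≠ 0 := by
    rintro rfl
    exact hw N₁.zero_mem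
  have hAκu : A (κ • u) = 0 := hA3 _ hκ
  rcases hZ _ hAu with h0 | h0
  · -- a transvection
    have h3 : A u = w := sub_eq_zero.1 h0
    have h4 : A (κ • w) = 0 := hu1.trans h0
    have h5 := tv β hβ w (Or.inr (by rw [hβx, h3])) (Or.inl (by rw [hβx, hAκu, add_zero])) (Or.inl (by rw [hβx, hA2, add_zero]))
      (Or.inl (by rw [hβx, h4, add_zero]))
    have h6 : β u = u := by rw [h5]; rfl
    rw [hβx, h3, add_eq_left] at h6
    exact hw0 h6
  · have h3 : A u = w + κ • u := by rw [← h0]; abel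
    have h4 : A (κ • w) = κ • u := hu1.trans h0
    have b1 : β u = u + (w + κ • u) := by rw [hβx, h3]
    have b2 : β (κ • u) = κ • u := by rw [hβx, hAκu, add_zero]
    have b3 : β w = w := by rw [hβx, hA2, add_zero]
    have b4 : β (κ • w) = κ • w + κ • u := by rw [hβx, h4]
    have hκ3 : (κ + 1) * κ = 1 := by linear_combination hκ2 + dK κ
    have hκ11 : κ + 1 ≠ 0 := by
      intro h
      rw [h, zero_mul] at hκ3
      exact zero_ne_one hκ3
    obtain ⟨E, hEM, hEu, hEw⟩ := hE κ hκ0
    obtain ⟨D, hDM, hDu, hDw⟩ := hD (κ + 1) hκ11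
    have e1 : (E * D) u = κ • u := by
      show E (D u) = _
      have h5 := hDu 1
      have h6 := hEu 1
      rw [one_smul] at h5 h6
      rw [h5, h6, one_mul]
    have e2 : (E * D) (κ • u) = κ • u + u := by
      show E (D (κ • u)) = _
      rw [hDu, hEu, hκ2, add_smul, one_smul]
    have e3 : (E * D) w = κ • w + w := by
      show E (D w) = _
      have h5 := hDw 1
      rw [one_smul, one_mul] at h5
      rw [h5, hEw, add_smul, one_smul]
    have e4 : (E * D) (κ • w) = w := by
      show E (D (κ • w)) = _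
      rw [hDw, hEw, mul_comm κ, hκ3, one_smul]
    have s1 : S u = w := by have := hSu 1; rwa [one_smul, one_smul] at this
    have s2 : S w = u := by have := hSw 1; rwa [one_smul, one_smul] at this
    have d1 : d u = u := by have := hdu 1; rwa [one_smul] at this
    have d2 : d w = κ • w := by have := hdw 1; rwa [one_smul, one_mul] at this
    have d3 : d (κ • w) = κ • w + w := by rw [hdw, hκ2, add_smul, one_smul]
    have htM : β * d * S * β * (E * D) ∈ M :=
      M.mul_mem (M.mul_mem (M.mul_mem (M.mul_mem hβ hd) hS) hβ) (M.mul_mem hEM hDM)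
    have t1 : (β * d * S * β * (E * D)) u = u + (u + w + κ • u + κ • w) := by
      show β (d (S (β ((E * D) u)))) = _
      rw [e1, b2, hSu, d3, map_add, b3, b4]
      have e : u + (u + w + κ • u + κ • w) = (u + u) + (κ • w + κ • u + w) := by abel
      rw [e, dV, zero_add]
    have t2 : (β * d * S * β * (E * D)) (κ • u) = κ • u + (u + w + κ • u + κ • w) := by
      show β (d (S (β ((E * D) (κ • u))))) = _
      have e : κ • u + (u + (w + κ • u)) = (κ • u + κ • u) + (u + w) := by abel
      rw [e2, map_add β, b2, b1, e, dV, zero_add, map_add S, s1, s2, map_add d, d1, d2, map_add β, b1, b4]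
      have e' : κ • w + κ • u + (u + (w + κ • u)) = κ • u + (u + w + κ • u + κ • w) := by abel
      rw [e']
    have t3 : (β * d * S * β * (E * D)) w = w + (u + w + κ • u + κ • w) := by
      show β (d (S (β ((E * D) w)))) = _
      rw [e3, map_add β, b3, b4, map_add S, map_add S, hSw, hSu, s2, map_add d, map_add d, hdu, d3, d1, map_add β, map_add β, map_add β,
        b1, b2, b3, b4]
      have e : κ • u + (κ • w + κ • u + w) + (u + (w + κ • u)) = w + (u + w + κ • u + κ • w) + (κ • u + κ • u) := by abel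
      rw [e, dV, add_zero]
    have t4 : (β * d * S * β * (E * D)) (κ • w) = κ • w + (u + w + κ • u + κ • w) := by
      show β (d (S (β ((E * D) (κ • w))))) = _
      rw [e4, b3, s2, d1, b1]
      have e : κ • w + (u + w + κ • u + κ • w) = (κ • w + κ • w) + (u + (w + κ • u)) := by abel
      rw [e, dV, zero_add]
    have h5 := tv _ htM _ (Or.inr t1) (Or.inr t2) (Or.inr t3) (Or.inr t4)
    rw [h5] at t1
    have h6 : u + w + κ • u + κ • w = 0 := add_eq_left.1 t1.symm
    have h7 := congrArg φ h6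
    rw [map_add, map_add, map_add, map_smul, map_smul, hφu, hφw, map_zero, smul_zero, zero_add, add_zero, smul_eq_mul, mul_one] at h7
    apply hκ11
    rw [add_comm]
    exact h7

end Cfsg.Agent.H21.GUx
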