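import Mathlib
import Cfsg.Agent.GUx7

set_option autoImplicit false

/-! linear groups over extension fields of prime degree: the dichotomy -/

namespace Cfsg.Agent.H21.GUx

open Module

variable {F K V : Type*} [Field F] [Field K] [Algebra F K] [AddCommGroup V] [Module F V] [Module K V] [IsScalarTower F K V]
variable {M : Subgroup (V ≃ₗ[F] V)}

theorem exists_line (v : V) : ∃ N : Submodule F V, ∀ x, x ∈ N ↔ ∃ k : K, k • v = x :=
  ⟨(Submodule.span K {v}).restrictScalars F, fun x => Submodule.mem_span_singleton⟩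

theorem dichotomy [Finite F] [FiniteDimensional F K] [FiniteDimensional F V] (hp : (finrank F K).Prime) (hG : Gen K M)
    (h2 : ∀ v : V, ∃ x, x ∉ Submodule.span K {v}) :
    (∀ (v : V) (γ : V →ₗ[F] F), γ v = 0 → TV M v γ) ∨ (∀ g ∈ M, ∀ (v : V) (k : K), ∃ k' : K, g (k • v) = k' • g v) := by
  by_cases hex : ∃ A B : Submodule F V, Mb K M A ∧ Mb K M B ∧ A ≠ B ∧ A ⊓ B ≠ ⊥
  · left
    obtain ⟨A, B, hA, hB, hAB, hne⟩ := hex
    obtain ⟨u, N₁, N₂, c⟩ := exists_cfg hp hG h2 hA hB hAB hne
    obtain ⟨ρ, h1, h3, h4, h5⟩ : ∃ ρ ∈ M, (∀ z ∈ N₁ ⊓ N₂, ρ z = z) ∧ (∀ x, ρ x - x ∈ N₁ ⊓ N₂) ∧ ρ ≠ 1 := by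
      by_cases hd : finrank F K + 3 ≤ finrank F V
      · exact c.exists_rho hd
      · haveI : FiniteDimensional K V := FiniteDimensional.right F K V
        have h3 := Module.finrank_mul_finrank F K V
        have h4 := hp.two_le
        have h5 : 2 ≤ finrank K V := by
          by_contra hcon
          obtain ⟨x, hx⟩ := h2 u
          have h6 : finrank K (Submodule.span K ({u} : Set V)) = 1 := finrank_span_singleton c.u0
          have h7 : Submodule.span K ({u} : Set V) = ⊤ := by
            apply Submodule.eq_top_of_finrank_eq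
            have := Submodule.finrank_le (Submodule.span K ({u} : Set V))
            omega
          rw [h7] at hx
          exact hx trivial
        have h6 : finrank F K = 2 := by
          by_contra h7
          have h8 : 3 ≤ finrank F K := by omega
          have h9 : finrank F K * 2 ≤ finrank F K * finrank K V := Nat.mul_le_mul_left _ h5
          omega
        have h7 : finrank F V = 4 := by
          rw [h6] at h3 hd
          omega
        exact c.exists_rho' h6 h7
    exact fun v γ hγ => c.all h1 h3 h4 h5 v γ hγ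
  · right
    intro g hg v k
    by_cases hv : v = 0
    · exact ⟨0, by rw [hv, smul_zero, map_zero, smul_zero]⟩
    obtain ⟨N, hN⟩ := exists_line (F := F) (K := K) v
    obtain ⟨N', hN'⟩ := exists_line (F := F) (K := K) (g v)
    have hgv : g v ≠ 0 := by
      intro h
      exact hv (g.injective (h.trans (map_zero g).symm))
    have h1 : Mb K M (N.map (g : V →ₗ[F] V)) := (mb_line hv hN).map hg
    have h3 : Mb K M N' := mb_line hgv hN'
    have h4 : N.map (g : V →ₗ[F] V) = N' := by
      by_contra hne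
      apply hex
      refine ⟨_, _, h1, h3, hne, ?_⟩
      intro h0
      apply hgv
      have h5 : g v ∈ N.map (g : V →ₗ[F] V) ⊓ N' := by
        refine ⟨Submodule.mem_map.2 ⟨v, (hN v).2 ⟨1, one_smul _ _⟩, rfl⟩, (hN' _).2 ⟨1, one_smul _ _⟩⟩
      rw [h0] at h5
      exact (Submodule.mem_bot F).1 h5
    have h5 : g (k • v) ∈ N' := by
      rw [← h4]
      exact Submodule.mem_map.2 ⟨k • v, (hN _).2 ⟨k, rfl⟩, rfl⟩
    obtain ⟨k', hk'⟩ := (hN' _).1 h5
    exact ⟨k', hk'.symm⟩

theorem semilin {g : V ≃ₗ[F] V} (h2 : ∀ v : V, ∃ x, x ∉ Submodule.span K {v})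
    (hg : ∀ (v : V) (k : K), ∃ k' : K, g (k • v) = k' • g v) (hg' : ∀ (v : V) (k : K), ∃ k' : K, g⁻¹ (k • v) = k' • g⁻¹ v) (k : K) :
    ∃ k' : K, ∀ v, g (k • v) = k' • g v := by
  have hind : ∀ v w : V, v ≠ 0 → w ∉ Submodule.span K {v} → ∀ a b : K, g (k • v) = a • g v → g (k • w) = b • g w → a = b := by
    intro v w hv hw a b ha hb
    obtain ⟨c, hc⟩ := hg (v + w) k
    rw [smul_add, map_add, map_add, ha, hb, smul_add] at hc
    have h1 : (a - c) • g v = (c - b) • g w := by
      rw [sub_smul, sub_smul]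
      have : a • g v + b • g w - c • g v - b • g w = c • g v + c • g w - c • g v - b • g w := by rw [hc]
      calc a • g v - c • g v = a • g v + b • g w - c • g v - b • g w := by abel
        _ = c • g v + c • g w - c • g v - b • g w := this
        _ = _ := by abel
    have h3 : c - b = 0 := by
      by_contra h0
      apply hw
      have e : g w = ((c - b)⁻¹ * (a - c)) • g v := by
        rw [← smul_smul, h1, smul_smul, inv_mul_cancel₀ h0, one_smul]
      obtain ⟨d, hd⟩ := hg' (g v) ((c - b)⁻¹ * (a - c))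
      rw [← e, ia, ia] at hd
      exact Submodule.mem_span_singleton.2 ⟨d, hd.symm⟩
    rw [h3, zero_smul] at h1
    have hgv : g v ≠ 0 := by
      intro h
      exact hv (g.injective (h.trans (map_zero g).symm))
    have h4 := (smul_eq_zero.1 h1).resolve_right hgv
    linear_combination h4 + h3
  obtain ⟨v₀, hv₀⟩ := h2 0
  have hv0 : v₀ ≠ 0 := by
    rintro rfl
    exact hv₀ (Submodule.zero_mem _)
  obtain ⟨a, ha⟩ := hg v₀ k
  refine ⟨a, fun v => ?_⟩
  by_cases hv : v = 0
  · rw [hv, smul_zero, map_zero, smul_zero]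
  obtain ⟨b, hb⟩ := hg v k
  rw [hb]
  congr 1
  by_cases hm : v ∈ Submodule.span K {v₀}
  · obtain ⟨x, hx⟩ := h2 v₀
    obtain ⟨c, hc⟩ := hg x k
    have hx0 : x ≠ 0 := by
      rintro rfl
      exact hx (Submodule.zero_mem _)
    have h1 := hind v₀ x hv0 hx a c ha hc
    have h3 : x ∉ Submodule.span K {v} := by
      intro h
      obtain ⟨s, rfl⟩ := Submodule.mem_span_singleton.1 hm
      obtain ⟨t, rfl⟩ := Submodule.mem_span_singleton.1 h
      exact hx (Submodule.smul_mem _ _ (Submodule.smul_mem _ _ (Submodule.mem_span_singleton_self _)))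
    have h4 := hind v x hv h3 b c hb hc
    rw [h4, h1]
  · exact (hind v₀ v hv0 hm a b ha hb).symm

end Cfsg.Agent.H21.GUx
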