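import Mathlib
import Cfsg.Agent.GUx8
import Cfsg.Agent.GUt2

set_option autoImplicit false

/-! linear groups over extension fields of prime degree: matrices -/

namespace Cfsg.Agent.H21.GUx

open Module Matrix Cfsg.Geo Cfsg.Agent.H29.Trv

variable {F : Type*} [Field F] {n r : ℕ} {K : Subalgebra F (Matrix (Fin n) (Fin n) F)}

theorem isField (hn : 0 < n) (hK : IsFieldSubalgebra r K) : IsField K := by
  haveI : Nonempty (Fin n) := ⟨⟨0, hn⟩⟩
  refine ⟨⟨0, 1, zero_ne_one⟩, fun x y => Subtype.ext (hK.comm _ x.2 _ y.2), fun {a} ha => ?_⟩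
  obtain ⟨y, hy, h⟩ := hK.inv a a.2 (fun h0 => ha (Subtype.ext h0))
  exact ⟨⟨y, hy⟩, Subtype.ext h⟩

/-- matrices as linear equivalences -/
noncomputable def ee (F : Type*) [Field F] (n : ℕ) : GL (Fin n) F ≃* ((Fin n → F) ≃ₗ[F] (Fin n → F)) :=
  Matrix.GeneralLinearGroup.toLin.trans (LinearMap.GeneralLinearGroup.generalLinearEquiv F (Fin n → F))

theorem ee_apply (g : GL (Fin n) F) (x : Fin n → F) : ee F n g x = (g : Matrix (Fin n) (Fin n) F) *ᵥ x := rfl

/-- commuting matrices normalise -/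
theorem mem_norm_of_comm {g : GL (Fin n) F} (h : ∀ k ∈ K, (g : Matrix (Fin n) (Fin n) F) * k = k * g) : g ∈ subalgebraNormalizer K := by
  have key : ∀ g : GL (Fin n) F, (∀ k ∈ K, (g : Matrix (Fin n) (Fin n) F) * k = k * g) → ∀ k ∈ K,
      (g : Matrix (Fin n) (Fin n) F) * k * ((g⁻¹ : GL (Fin n) F) : Matrix (Fin n) (Fin n) F) ∈ K := by
    intro g h k hk
    rw [h k hk, mul_assoc, ← Units.val_mul, mul_inv_cancel, Units.val_one, mul_one]
    exact hk
  have h' : ∀ k ∈ K, ((g⁻¹ : GL (Fin n) F) : Matrix (Fin n) (Fin n) F) * k = k * ((g⁻¹ : GL (Fin n) F) : Matrix (Fin n) (Fin n) F) := by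
    intro k hk
    have h1 := h k hk
    have e1 : ((g⁻¹ : GL (Fin n) F) : Matrix (Fin n) (Fin n) F) * (g : Matrix (Fin n) (Fin n) F) = 1 := by
      rw [← Units.val_mul, inv_mul_cancel, Units.val_one]
    have e2 : (g : Matrix (Fin n) (Fin n) F) * ((g⁻¹ : GL (Fin n) F) : Matrix (Fin n) (Fin n) F) = 1 := by
      rw [← Units.val_mul, mul_inv_cancel, Units.val_one]
    calc ((g⁻¹ : GL (Fin n) F) : Matrix (Fin n) (Fin n) F) * k
        = ((g⁻¹ : GL (Fin n) F) : Matrix (Fin n) (Fin n) F) * (k * g) * ((g⁻¹ : GL (Fin n) F) : Matrix (Fin n) (Fin n) F) := by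
          rw [mul_assoc, mul_assoc, e2, mul_one]
      _ = k * ((g⁻¹ : GL (Fin n) F) : Matrix (Fin n) (Fin n) F) := by
          rw [← h1, ← mul_assoc, e1, one_mul]
  intro k
  constructor
  · exact key g h k
  · intro hk
    have h3 := key g⁻¹ h' _ hk
    have e : ((g⁻¹ : GL (Fin n) F) : Matrix (Fin n) (Fin n) F) * ((g : Matrix (Fin n) (Fin n) F) * k * ((g⁻¹ : GL (Fin n) F) : Matrix (Fin n) (Fin n) F)) *
        ((g⁻¹⁻¹ : GL (Fin n) F) : Matrix (Fin n) (Fin n) F) = k := by
      rw [inv_inv, mul_assoc, mul_assoc, ← Units.val_mul, inv_mul_cancel, Units.val_one, mul_one, ← mul_assoc, ← Units.val_mul,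
        inv_mul_cancel, Units.val_one, one_mul]
    rwa [e] at h3

theorem mem_norm_of_semi {g : GL (Fin n) F} (h : ∀ k ∈ K, ∃ k' ∈ K, (g : Matrix (Fin n) (Fin n) F) * k = k' * g)
    (h' : ∀ k ∈ K, ∃ k' ∈ K, ((g⁻¹ : GL (Fin n) F) : Matrix (Fin n) (Fin n) F) * k = k' * ((g⁻¹ : GL (Fin n) F) : Matrix (Fin n) (Fin n) F)) :
    g ∈ subalgebraNormalizer K := by
  intro k
  constructor
  · intro hk
    obtain ⟨k', hk', e⟩ := h k hk
    rw [e, mul_assoc, ← Units.val_mul, mul_inv_cancel, Units.val_one, mul_one]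
    exact hk'
  · intro hk
    obtain ⟨k', hk', e⟩ := h' _ hk
    have e1 : k * ((g⁻¹ : GL (Fin n) F) : Matrix (Fin n) (Fin n) F) = k' * ((g⁻¹ : GL (Fin n) F) : Matrix (Fin n) (Fin n) F) := by
      rw [← e, ← mul_assoc, ← mul_assoc, ← Units.val_mul, inv_mul_cancel, Units.val_one, one_mul]
    have e2 : k = k' := by
      have := congrArg (· * (g : Matrix (Fin n) (Fin n) F)) e1
      simp only [mul_assoc] at this
      rwa [← Units.val_mul, inv_mul_cancel, Units.val_one, mul_one, mul_one] at this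
    rw [e2]
    exact hk'

/-- the elements of the normaliser, acting K-linearly -/
theorem gen_elt [Fintype F] (hn : 0 < n) (hK : IsFieldSubalgebra r K) (φ : (Fin n → F) → K)
    (hadd : ∀ x y, φ (x + y) = φ x + φ y) (hsmul : ∀ (k : K) x, φ ((k : Matrix (Fin n) (Fin n) F) *ᵥ x) = k * φ x)
    (w : Fin n → F) (y : K) (hy : y ≠ 0) (hyw : 1 + φ w = y ^ (Nat.card F - 1)) :
    ∃ g ∈ subalgebraNormalizer K ⊓ specialLinear (Fin n) F,
      ∀ x, (g : Matrix (Fin n) (Fin n) F) *ᵥ x = x + (φ x : Matrix (Fin n) (Fin n) F) *ᵥ w := by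
  classical
  have hcomm : ∀ a b : K, a * b = b * a := fun x y => Subtype.ext (hK.comm _ x.2 _ y.2)
  -- elements of the given form lie in the normaliser
  have hnorm : ∀ (g : GL (Fin n) F) (c : K), (∀ x, (g : Matrix (Fin n) (Fin n) F) *ᵥ x = x + ((c * φ x : K) : Matrix (Fin n) (Fin n) F) *ᵥ w) →
      g ∈ subalgebraNormalizer K := by
    intro g c hg
    apply mem_norm_of_comm
    intro k hk
    apply ext_mulVec
    intro x
    have h1 := hsmul ⟨k, hk⟩ x
    simp only at h1
    rw [← mulVec_mulVec, ← mulVec_mulVec, hg, hg, h1, mulVec_add, mulVec_mulVec, ← mul_assoc, hcomm c, mul_assoc]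
    rfl
  have hsm : ∀ (a : F) x, φ (a • x) = algebraMap F K a * φ x := by
    intro a x
    rw [← hsmul]
    congr 1
    show a • x = (algebraMap F (Matrix (Fin n) (Fin n) F) a) *ᵥ x
    rw [Algebra.algebraMap_eq_smul_one, smul_mulVec, one_mulVec]
  let A : K → ((Fin n → F) →ₗ[F] (Fin n → F)) := fun c =>
    { toFun := fun x => ((c * φ x : K) : Matrix (Fin n) (Fin n) F) *ᵥ w
      map_add' := fun x y => by
        rw [hadd, mul_add]
        show ((c * φ x : K) + (c * φ y : K) : Matrix (Fin n) (Fin n) F) *ᵥ w = _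
        rw [add_mulVec]
      map_smul' := fun a x => by
        rw [hsm, hcomm c, mul_assoc, hcomm _ c]
        show (((algebraMap F (Matrix (Fin n) (Fin n) F)) a) * ((c * φ x : K) : Matrix (Fin n) (Fin n) F)) *ᵥ w = _
        rw [← mulVec_mulVec, Algebra.algebraMap_eq_smul_one, smul_mulVec, one_mulVec]
        rfl }
  have hA : ∀ c x, A c x = ((c * φ x : K) : Matrix (Fin n) (Fin n) F) *ᵥ w := fun c x => rfl
  have hN : ∀ c x, (1 + LinearMap.toMatrix' (A c)) *ᵥ x = x + ((c * φ x : K) : Matrix (Fin n) (Fin n) F) *ᵥ w := by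
    intro c x
    rw [add_mulVec, one_mulVec, LinearMap.toMatrix'_mulVec, hA]
  have hcompose : ∀ c c' x, (1 + LinearMap.toMatrix' (A c)) *ᵥ ((1 + LinearMap.toMatrix' (A c')) *ᵥ x) =
      x + (((c + c' + c * c' * φ w) * φ x : K) : Matrix (Fin n) (Fin n) F) *ᵥ w := by
    intro c c' x
    rw [hN, hN, hadd, hsmul, add_assoc, ← add_mulVec]
    congr 2
    show ((c' * φ x + c * (φ x + c' * φ x * φ w) : K) : Matrix (Fin n) (Fin n) F) = _
    congr 1
    have e1 : c' * φ x * φ w = c' * φ w * φ x := by rw [mul_assoc, hcomm (φ x), ← mul_assoc]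
    rw [e1, mul_add, add_mul, add_mul, ← mul_assoc, ← mul_assoc]
    abel
  by_cases hw : φ w = 0
  · -- unipotent
    have hnil : IsNilpotent (LinearMap.toMatrix' (A 1)) := by
      refine ⟨2, ?_⟩
      apply ext_mulVec
      intro x
      rw [pow_two, ← mulVec_mulVec, LinearMap.toMatrix'_mulVec, LinearMap.toMatrix'_mulVec, hA, hA, hsmul, hw]
      simp
    have hdet := Cfsg.Agent.H21.GUt.det_one_add_nil hnil
    let g : GL (Fin n) F := Matrix.GeneralLinearGroup.mkOfDetNeZero (1 + LinearMap.toMatrix' (A 1)) (by rw [hdet]; exact one_ne_zero)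
    have hg : ∀ x, (g : Matrix (Fin n) (Fin n) F) *ᵥ x = x + ((1 * φ x : K) : Matrix (Fin n) (Fin n) F) *ᵥ w := fun x => hN 1 x
    refine ⟨g, ⟨hnorm g 1 hg, (mem_SL_iff g).2 hdet⟩, fun x => ?_⟩
    rw [hg, one_mul]
  · obtain ⟨v, hv⟩ := (isField hn hK).mul_inv_cancel hw
    obtain ⟨y', hy'⟩ := (isField hn hK).mul_inv_cancel hy
    -- s = 1 + ((y-1)/φ w) φ w
    have hinv : (1 + LinearMap.toMatrix' (A ((y - 1) * v))) * (1 + LinearMap.toMatrix' (A ((y' - 1) * v))) = 1 := by
      apply ext_mulVec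
      intro x
      rw [← mulVec_mulVec, hcompose, one_mulVec]
      have e : (y - 1) * v + (y' - 1) * v + (y - 1) * v * ((y' - 1) * v) * φ w = 0 := by
        have e1 : (y - 1) * v * ((y' - 1) * v) * φ w = (y - 1) * (y' - 1) * v := by
          calc (y - 1) * v * ((y' - 1) * v) * φ w = (y - 1) * (v * (y' - 1)) * (v * φ w) := by simp only [mul_assoc]
            _ = (y - 1) * ((y' - 1) * v) * (φ w * v) := by rw [hcomm v (y' - 1), hcomm v (φ w)]
            _ = (y - 1) * (y' - 1) * v := by rw [hv, mul_one, ← mul_assoc]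
        rw [e1, ← add_mul, ← add_mul]
        have e2 : y - 1 + (y' - 1) + (y - 1) * (y' - 1) = y * y' - 1 := by
          rw [sub_mul, mul_sub, mul_one, one_mul]
          abel
        rw [e2, hy', sub_self, zero_mul]
      rw [e, zero_mul]
      show x + (0 : Matrix (Fin n) (Fin n) F) *ᵥ w = x
      rw [zero_mulVec, add_zero]
    have hdet : (1 + LinearMap.toMatrix' (A ((y - 1) * v))).det ≠ 0 := by
      intro h0
      have := congrArg Matrix.det hinv
      rw [det_mul, h0, zero_mul, det_one] at this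
      exact zero_ne_one this
    let s : GL (Fin n) F := Matrix.GeneralLinearGroup.mkOfDetNeZero _ hdet
    have hs : ∀ x, (s : Matrix (Fin n) (Fin n) F) *ᵥ x = x + (((y - 1) * v * φ x : K) : Matrix (Fin n) (Fin n) F) *ᵥ w := fun x => hN _ x
    have hpow : ∀ (j : ℕ) x, ((s ^ j : GL (Fin n) F) : Matrix (Fin n) (Fin n) F) *ᵥ x =
        x + (((y ^ j - 1) * v * φ x : K) : Matrix (Fin n) (Fin n) F) *ᵥ w := by
      intro j
      induction j with
      | zero =>
        intro x
        rw [pow_zero, pow_zero, sub_self, zero_mul, zero_mul]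
        show (1 : Matrix (Fin n) (Fin n) F) *ᵥ x = x + (0 : Matrix (Fin n) (Fin n) F) *ᵥ w
        rw [zero_mulVec, add_zero, one_mulVec]
      | succ j ih =>
        intro x
        rw [pow_succ, Units.val_mul, ← mulVec_mulVec, hs, ih, hadd, hsmul, add_assoc, ← add_mulVec]
        congr 2
        show (((y - 1) * v * φ x + (y ^ j - 1) * v * (φ x + (y - 1) * v * φ x * φ w) : K) : Matrix (Fin n) (Fin n) F) = _
        congr 1
        have e1 : (y - 1) * v * φ x * φ w = (y - 1) * φ x := by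
          calc (y - 1) * v * φ x * φ w = (y - 1) * (v * (φ x * φ w)) := by simp only [mul_assoc]
            _ = (y - 1) * (v * (φ w * φ x)) := by rw [hcomm (φ x)]
            _ = (y - 1) * ((φ w * v) * φ x) := by rw [← mul_assoc v, hcomm v (φ w)]
            _ = (y - 1) * φ x := by rw [hv, one_mul]
        rw [e1]
        have e2 : φ x + (y - 1) * φ x = y * φ x := by rw [sub_mul, one_mul]; abel
        rw [e2]
        have e3 : (y ^ j - 1) * v * (y * φ x) = (y ^ j * y - y) * v * φ x := by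
          rw [← mul_assoc, mul_assoc (y ^ j - 1), hcomm v y, ← mul_assoc, sub_mul, one_mul]
        rw [e3, ← add_mul, ← add_mul, pow_succ]
        congr 2
        abel
    have hdet1 : ((s ^ (Nat.card F - 1) : GL (Fin n) F) : Matrix (Fin n) (Fin n) F).det = 1 := by
      rw [Units.val_pow_eq_pow_val, det_pow, Nat.card_eq_fintype_card]
      exact FiniteField.pow_card_sub_one_eq_one _ hdet
    have e : ∀ x, (y ^ (Nat.card F - 1) - 1) * v * φ x = φ x := by
      intro x
      rw [← hyw, add_sub_cancel_left, hv, one_mul]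
    have e' : ∀ x, ((s ^ (Nat.card F - 1) : GL (Fin n) F) : Matrix (Fin n) (Fin n) F) *ᵥ x = x + (φ x : Matrix (Fin n) (Fin n) F) *ᵥ w := by
      intro x
      rw [hpow, e]
    refine ⟨s ^ (Nat.card F - 1), ⟨hnorm _ 1 (fun x => by rw [e', one_mul]), (mem_SL_iff _).2 hdet1⟩, e'⟩

/-- the main theorem -/
theorem main [Fintype F] (hr : r.Prime) (hlt : r < n) (hK : IsFieldSubalgebra r K) {M : Subgroup (GL (Fin n) F)}
    (hM : subalgebraNormalizer K ⊓ specialLinear (Fin n) F ≤ M) {g : GL (Fin n) F} (hg : g ∈ M) (hgK : g ∉ subalgebraNormalizer K) :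
    specialLinear (Fin n) F ≤ M := by
  classical
  have hn : 0 < n := by omega
  letI : Field K := (isField hn hK).toField
  letI : Module K (Fin n → F) :=
    { smul := fun k v => (k : Matrix (Fin n) (Fin n) F) *ᵥ v
      one_smul := fun v => one_mulVec v
      mul_smul := fun a b v => (mulVec_mulVec v (a : Matrix (Fin n) (Fin n) F) (b : Matrix (Fin n) (Fin n) F)).symm
      smul_zero := fun a => mulVec_zero _
      smul_add := fun a x y => mulVec_add _ _ _
      add_smul := fun a b x => add_mulVec _ _ _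
      zero_smul := fun x => zero_mulVec _ }
  have hsm : ∀ (k : K) (v : Fin n → F), k • v = (k : Matrix (Fin n) (Fin n) F) *ᵥ v := fun k v => rfl
  haveI : IsScalarTower F K (Fin n → F) := ⟨fun a k v => smul_mulVec a (k : Matrix (Fin n) (Fin n) F) v⟩
  haveI : FiniteDimensional F K := FiniteDimensional.finiteDimensional_submodule (Subalgebra.toSubmodule K)
  have hfr : finrank F K = r := hK.finrank_eq
  have hp : (finrank F K).Prime := by rw [hfr]; exact hr
  have h2 : ∀ v : Fin n → F, ∃ x, x ∉ Submodule.span K {v} := by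
    intro v
    by_contra hcon
    push Not at hcon
    obtain ⟨N, hN⟩ := exists_line (F := F) (K := K) v
    have h1 : N = ⊤ := by
      rw [eq_top_iff]
      intro x _
      exact (hN x).2 (Submodule.mem_span_singleton.1 (hcon x))
    have h3 : finrank F N ≤ finrank F K := by
      let L : K →ₗ[F] (Fin n → F) := (LinearMap.toSpanSingleton K (Fin n → F) v).restrictScalars F
      have h4 : LinearMap.range L = N := by
        ext x
        rw [LinearMap.mem_range, hN]
        rfl
      rw [← h4]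
      exact LinearMap.finrank_range_le L
    rw [h1, finrank_top, hfr, Module.finrank_fintype_fun_eq_card, Fintype.card_fin] at h3
    omega
  have hG : Gen K (M.map (ee F n).toMonoidHom) := by
    intro φ w y hy hyw
    obtain ⟨g, hg, hgx⟩ := gen_elt hn hK (fun x => φ x) (fun x y => map_add φ x y) (fun k x => by
      rw [← hsm, map_smul, smul_eq_mul]) w y hy hyw
    refine ⟨ee F n g, Subgroup.mem_map.2 ⟨g, hM hg, rfl⟩, fun x => ?_⟩
    rw [ee_apply, hgx, hsm]
  rcases dichotomy hp hG h2 with h | h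
  · apply SL_le_of_ctr
    rw [eq_top_iff]
    intro v _
    intro γ hγ
    obtain ⟨t, ht, htx⟩ := h v γ hγ
    obtain ⟨s, hs, rfl⟩ := Subgroup.mem_map.1 ht
    exact ⟨hγ, s, hs, fun x => htx x⟩
  · exfalso
    apply hgK
    have key : ∀ g ∈ M, ∀ k ∈ K, ∃ k' ∈ K, (g : Matrix (Fin n) (Fin n) F) * k = k' * g := by
      intro g hg k hk
      obtain ⟨k', hk'⟩ := semilin (g := ee F n g) h2 (h _ (Subgroup.mem_map.2 ⟨g, hg, rfl⟩))
        (h _ (Subgroup.inv_mem _ (Subgroup.mem_map.2 ⟨g, hg, rfl⟩))) ⟨k, hk⟩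
      refine ⟨k', k'.2, ?_⟩
      apply ext_mulVec
      intro x
      rw [← mulVec_mulVec, ← mulVec_mulVec]
      exact hk' x
    exact mem_norm_of_semi (key g hg) (key g⁻¹ (M.inv_mem hg))

end Cfsg.Agent.H21.GUx
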