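import Mathlib
import Cfsg.Agent.GUx9

set_option autoImplicit false

/-! linear groups over extension fields of prime degree: determinants and properness -/

namespace Cfsg.Agent.H21.GUx

open Module Matrix Cfsg.Geo Cfsg.Agent.H29.Trv

theorem det_refl {F K V : Type*} [Field F] [Field K] [Algebra F K] [AddCommGroup V] [Module F V] [Module K V] [IsScalarTower F K V]
    [FiniteDimensional F V] [FiniteDimensional F K] (φ : V →ₗ[K] K) {w : V} (hw : φ w = 1) (y : K) (S : V →ₗ[F] V)
    (hS : ∀ x, S x = x + ((y - 1) * φ x) • w) : LinearMap.det S = Algebra.norm F y := by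
  let φF : V →ₗ[F] K := φ.restrictScalars F
  have hφF : ∀ x, φF x = φ x := fun _ => rfl
  have hsurj : Function.Surjective φF := fun k => ⟨k • w, by rw [hφF, map_smul, hw, smul_eq_mul, mul_one]⟩
  have hker : ∀ x ∈ LinearMap.ker φF, S x = x := by
    intro x hx
    have hx' : φ x = 0 := hx
    rw [hS, hx', mul_zero, zero_smul, add_zero]
  have he : LinearMap.ker φF ≤ (LinearMap.ker φF).comap S := by
    intro x hx
    rw [Submodule.mem_comap, hker x hx]
    exact hx
  have h1 := LinearMap.det_eq_det_mul_det (LinearMap.ker φF) S he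
  have h2 : S.restrict he = LinearMap.id := by
    apply LinearMap.ext
    rintro ⟨x, hx⟩
    exact Subtype.ext (hker x hx)
  rw [h2, LinearMap.det_id, one_mul] at h1
  let e : (V ⧸ LinearMap.ker φF) ≃ₗ[F] K := φF.quotKerEquivOfSurjective hsurj
  have he' : ∀ x, e (Submodule.Quotient.mk x) = φ x := fun x => rfl
  have h3 := LinearMap.det_conj ((LinearMap.ker φF).mapQ (LinearMap.ker φF) S he) e
  rw [h1, ← h3, Algebra.norm_apply]
  congr 1
  apply LinearMap.ext
  intro k
  obtain ⟨x, rfl⟩ := hsurj k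
  show e ((LinearMap.ker φF).mapQ (LinearMap.ker φF) S he (e.symm (φF x))) = y * φF x
  have h4 : e.symm (φF x) = Submodule.Quotient.mk x := by
    rw [LinearEquiv.symm_apply_eq]
    rfl
  rw [h4, Submodule.mapQ_apply, he', hS, map_add, map_smul, hw, smul_eq_mul, mul_one, hφF]
  ring

variable {F : Type*} [Field F] {n r : ℕ} {K : Subalgebra F (Matrix (Fin n) (Fin n) F)}

theorem exists_det [Fintype F] (hn : 0 < n) (hK : IsFieldSubalgebra r K) {δ : F} (hδ : δ ≠ 0) :
    ∃ s ∈ subalgebraNormalizer K, (s : Matrix (Fin n) (Fin n) F).det = δ := by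
  classical
  letI : Field K := (isField hn hK).toField
  letI : Module K (Fin n → F) :=
    { smul := fun k v => (k : Matrix (Fin n) (Fin n) F) *ᵥ v
      one_smul := fun v => one_mulVec v
      mul_smul := fun a b v => (mulVec_mulVec v (a : Matrix (Fin n) (Fin n) F) (b : Matrix (Fin n) (Fin n) F)).symm
      smul_zero := fun a => mulVec_zero _
      smul_add := fun a x y => mulVec_add _ _ _
      add_smul := fun a b x => add_mulVec _ _ _
      zero_smul := fun x => zero_mulVec _ }
  have hsm : ∀ (k : K) (v : Fin n → F), k • v = (k : Matrix (Fin n) (Fin n) F) *ᵥ v := fun k v => rfl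
  haveI : IsScalarTower F K (Fin n → F) := ⟨fun a k v => smul_mulVec a (k : Matrix (Fin n) (Fin n) F) v⟩
  haveI : FiniteDimensional F K := FiniteDimensional.finiteDimensional_submodule (Subalgebra.toSubmodule K)
  haveI : Finite K := Module.finite_of_finite F
  obtain ⟨y, hy⟩ := FiniteField.norm_surjective F K δ
  have hw : (Pi.single ⟨0, hn⟩ 1 : Fin n → F) ∉ (⊥ : Submodule K (Fin n → F)) := by
    rw [Submodule.mem_bot]
    intro h
    have := congrFun h ⟨0, hn⟩
    rw [Pi.single_eq_same] at this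
    exact one_ne_zero this
  obtain ⟨φ, hφ, -⟩ := exists_phi hw
  generalize (Pi.single ⟨0, hn⟩ 1 : Fin n → F) = w at *
  let S : (Fin n → F) →ₗ[F] (Fin n → F) := LinearMap.id +
    ((LinearMap.toSpanSingleton K (Fin n → F) w).comp ((y - 1) • φ)).restrictScalars F
  have hS : ∀ x, S x = x + ((y - 1) * φ x) • w := fun x => rfl
  have hdet := det_refl φ hφ y S hS
  rw [hy] at hdet
  have hdet' : (LinearMap.toMatrix' S).det = δ := by rw [← hdet, LinearMap.det_toMatrix']
  refine ⟨Matrix.GeneralLinearGroup.mkOfDetNeZero (LinearMap.toMatrix' S) (by rw [hdet']; exact hδ), ?_, hdet'⟩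
  apply mem_norm_of_comm
  intro k hk
  apply ext_mulVec
  intro x
  rw [← mulVec_mulVec, ← mulVec_mulVec]
  show LinearMap.toMatrix' S *ᵥ (k *ᵥ x) = k *ᵥ (LinearMap.toMatrix' S *ᵥ x)
  rw [LinearMap.toMatrix'_mulVec, LinearMap.toMatrix'_mulVec]
  have h1 : k *ᵥ x = (⟨k, hk⟩ : K) • x := rfl
  have h2 : k *ᵥ S x = (⟨k, hk⟩ : K) • S x := rfl
  rw [h1, h2, hS, hS, map_smul, smul_add, smul_smul, smul_eq_mul]
  congr 2
  ring

theorem not_le_norm [Fintype F] (hr : r.Prime) (hlt : r < n) (hK : IsFieldSubalgebra r K) :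
    ¬ specialLinear (Fin n) F ≤ subalgebraNormalizer K := by
  classical
  intro hle
  have hn : 0 < n := by omega
  letI : Field K := (isField hn hK).toField
  letI : Module K (Fin n → F) :=
    { smul := fun k v => (k : Matrix (Fin n) (Fin n) F) *ᵥ v
      one_smul := fun v => one_mulVec v
      mul_smul := fun a b v => (mulVec_mulVec v (a : Matrix (Fin n) (Fin n) F) (b : Matrix (Fin n) (Fin n) F)).symm
      smul_zero := fun a => mulVec_zero _
      smul_add := fun a x y => mulVec_add _ _ _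
      add_smul := fun a b x => add_mulVec _ _ _
      zero_smul := fun x => zero_mulVec _ }
  have hsm : ∀ (k : K) (v : Fin n → F), k • v = (k : Matrix (Fin n) (Fin n) F) *ᵥ v := fun k v => rfl
  haveI : IsScalarTower F K (Fin n → F) := ⟨fun a k v => smul_mulVec a (k : Matrix (Fin n) (Fin n) F) v⟩
  haveI : FiniteDimensional F K := FiniteDimensional.finiteDimensional_submodule (Subalgebra.toSubmodule K)
  have hfr : finrank F K = r := hK.finrank_eq
  have h2 : ∀ v : Fin n → F, ∃ x, x ∉ Submodule.span K {v} := by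
    intro v
    by_contra hcon
    push Not at hcon
    obtain ⟨N, hN⟩ := exists_line (F := F) (K := K) v
    have h1 : N = ⊤ := by
      rw [eq_top_iff]
      intro x _
      exact (hN x).2 (Submodule.mem_span_singleton.1 (hcon x))
    have h3 : finrank F N ≤ finrank F K := by
      let L : K →ₗ[F] (Fin n → F) := (LinearMap.toSpanSingleton K (Fin n → F) v).restrictScalars F
      have h4 : LinearMap.range L = N := by
        ext x
        rw [LinearMap.mem_range, hN]
        rfl
      rw [← h4]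
      exact LinearMap.finrank_range_le L
    rw [h1, finrank_top, hfr, Module.finrank_fintype_fun_eq_card, Fintype.card_fin] at h3
    omega
  obtain ⟨v, hv⟩ := h2 0
  have hv0 : v ≠ 0 := by
    rintro rfl
    exact hv (Submodule.zero_mem _)
  obtain ⟨x, hx⟩ := h2 v
  obtain ⟨y, -, hy⟩ := exists_irr_pow (F := F) (K := K) (by rw [hfr]; exact hr.two_le)
  generalize y ^ (Nat.card F - 1) = k at hy
  have hkv : k • v ∉ Submodule.span F {v} := by
    intro hm
    obtain ⟨a, ha⟩ := Submodule.mem_span_singleton.1 hm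
    apply hy
    rw [Algebra.mem_bot]
    refine ⟨a, ?_⟩
    have h3 : (algebraMap F K a - k) • v = 0 := by
      rw [sub_smul, algebraMap_smul, ha, sub_self]
    exact sub_eq_zero.1 ((smul_eq_zero.1 h3).resolve_right hv0)
  obtain ⟨γ, hγ1, hγ0⟩ := exists_phi (K := F) hkv
  have hγv : γ v = 0 := hγ0 v (Submodule.mem_span_singleton_self v)
  have hγx : γ (x - γ x • (k • v)) = 0 := by
    rw [map_sub, map_smul γ (γ x), hγ1, smul_eq_mul, mul_one, sub_self]
  obtain ⟨-, t, ht, htx⟩ := T_SL (x - γ x • (k • v)) γ hγx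
  have h3 := (hle ht (k : Matrix (Fin n) (Fin n) F)).1 k.2
  apply hx
  have h4 : (t : Matrix (Fin n) (Fin n) F) *ᵥ ((k : Matrix (Fin n) (Fin n) F) *ᵥ v) =
      ((t : Matrix (Fin n) (Fin n) F) * (k : Matrix (Fin n) (Fin n) F) * ((t⁻¹ : GL (Fin n) F) : Matrix (Fin n) (Fin n) F)) *ᵥ ((t : Matrix (Fin n) (Fin n) F) *ᵥ v) := by
    rw [mulVec_mulVec, mulVec_mulVec, mul_assoc, mul_assoc, ← Units.val_mul, inv_mul_cancel, Units.val_one, mul_one]
  rw [htx, htx v, hγv, zero_smul, add_zero, ← hsm k v, hγ1, one_smul] at h4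
  have h5 : k • v + (x - γ x • (k • v)) =
      (⟨(t : Matrix (Fin n) (Fin n) F) * (k : Matrix (Fin n) (Fin n) F) * ((t⁻¹ : GL (Fin n) F) : Matrix (Fin n) (Fin n) F), h3⟩ : K) • v := h4
  rw [Submodule.mem_span_singleton]
  refine ⟨(⟨(t : Matrix (Fin n) (Fin n) F) * (k : Matrix (Fin n) (Fin n) F) * ((t⁻¹ : GL (Fin n) F) : Matrix (Fin n) (Fin n) F), h3⟩ : K) - k + algebraMap F K (γ x) * k, ?_⟩
  rw [add_smul, sub_smul, ← h5, mul_smul, algebraMap_smul]
  abel

end Cfsg.Agent.H21.GUx
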