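import Mathlib
import Cfsg.Agent.H3_GlInv
import Cfsg.Agent.H3_CentOver

/-!
# Invariant characters over a central character
-/

set_option autoImplicit false

open scoped ComplexConjugate commutatorElement

namespace Cfsg.Agent.H3.CCase

open Cfsg Cfsg.Agent.H3.CharBasic Cfsg.Agent.H3.CharIrr Cfsg.Agent.H3.CharComplete Cfsg.Agent.H3.CharInd
  Cfsg.Agent.H3.CharMult Cfsg.Agent.H25.GlaubCore Cfsg.Agent.H25.Glaub Cfsg.Agent.H25.Glaub2 Cfsg.Agent.H25.Glaub3
  Cfsg.Agent.H25.Clifford Cfsg.Agent.H3.GlInv Cfsg.Agent.H3.CentOver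

theorem dvd_pow_of {a m c p : ℕ} (hp : p ∣ m) (hm : m ≠ 0) (h : a ∣ p * m ^ c) (hac : a ≤ c) : a ∣ m ^ c := by
  rcases Nat.eq_zero_or_pos a with h0 | h0
  · subst h0
    rw [zero_dvd_iff] at h
    rcases Nat.mul_eq_zero.mp h with h1 | h1
    · rw [h1, zero_dvd_iff] at hp; exact absurd hp hm
    · rw [h1]
  · rw [← Nat.factorization_le_iff_dvd h0.ne' (pow_ne_zero _ hm)]
    intro q
    by_cases hq : q.Prime
    · by_cases hqa : q ∣ a
      · have hqm : q ∣ m := by
          rcases (Nat.Prime.dvd_mul hq).mp (hqa.trans h) with h1 | h1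
          · exact h1.trans hp
          · exact hq.dvd_of_dvd_pow h1
        rw [Nat.factorization_pow, Finsupp.smul_apply, smul_eq_mul]
        have h1 : a.factorization q < a := Nat.factorization_lt q h0.ne'
        have h2 : 1 ≤ m.factorization q := (Nat.Prime.dvd_iff_one_le_factorization hq hm).mp hqm
        nlinarith
      · rw [Nat.factorization_eq_zero_of_not_dvd hqa]; exact Nat.zero_le _
    · rw [Nat.factorization_eq_zero_of_not_prime _ hq]; exact Nat.zero_le _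

variable {F : Type*} [Group F] [Fintype F]

/-- the part of a central subgroup whose order only involves primes dividing `m` -/
def Zm (Z : Subgroup F) (hZ : Z ≤ Subgroup.center F) (m : ℕ) : Subgroup F where
  carrier := {z | z ∈ Z ∧ z ^ (m ^ Nat.card F) = 1}
  mul_mem' := by
    rintro a b ⟨ha, ha'⟩ ⟨hb, hb'⟩
    refine ⟨Z.mul_mem ha hb, ?_⟩
    have h1 : Commute a b := (Subgroup.mem_center_iff.mp (hZ hb) a)
    rw [h1.mul_pow, ha', hb', mul_one]
  one_mem' := ⟨Z.one_mem, one_pow _⟩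
  inv_mem' := by
    rintro a ⟨ha, ha'⟩
    exact ⟨Z.inv_mem ha, by rw [inv_pow, ha', inv_one]⟩

variable {Z : Subgroup F} (hZ : Z ≤ Subgroup.center F) {m : ℕ} (hm : m ≠ 0)

theorem Zm_le : Zm Z hZ m ≤ Z := fun _ h => h.1

theorem prime_Zm {p : ℕ} (hp : p.Prime) (h : p ∣ Nat.card (Zm Z hZ m)) : p ∣ m := by
  have : Fact p.Prime := ⟨hp⟩
  obtain ⟨x, hx⟩ := exists_prime_orderOf_dvd_card' (G := Zm Z hZ m) p h
  have h1 : x ^ (m ^ Nat.card F) = 1 := Subtype.ext x.2.2
  have h2 := orderOf_dvd_of_pow_eq_one h1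
  rw [hx] at h2
  exact hp.dvd_of_dvd_pow h2

include hm in
theorem prime_relIndex {p : ℕ} (hp : p.Prime) (hpm : p ∣ m) : ¬ p ∣ (Zm Z hZ m).relIndex Z := by
  intro h
  have : Fact p.Prime := ⟨hp⟩
  have hn : ((Zm Z hZ m).subgroupOf Z).Normal := ⟨fun n hn g => by
    have : g * n * g⁻¹ = n := by
      apply Subtype.ext
      have := Subgroup.mem_center_iff.mp (hZ n.2) g
      push_cast
      rw [this, mul_assoc, mul_inv_cancel, mul_one]
    rwa [this]⟩
  have h1 : p ∣ Nat.card (Z ⧸ (Zm Z hZ m).subgroupOf Z) := h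
  obtain ⟨x, hx⟩ := exists_prime_orderOf_dvd_card' (G := Z ⧸ (Zm Z hZ m).subgroupOf Z) p h1
  obtain ⟨z, rfl⟩ := QuotientGroup.mk_surjective x
  have h2 : (z : Z ⧸ (Zm Z hZ m).subgroupOf Z) ^ p = 1 := by rw [← hx]; exact pow_orderOf_eq_one _
  have h3 : z ^ p ∈ (Zm Z hZ m).subgroupOf Z := (QuotientGroup.eq_one_iff _).mp h2
  have h4 : ((z : F) ^ p) ^ (m ^ Nat.card F) = 1 := (Subgroup.mem_subgroupOf.mp h3).2
  rw [← pow_mul] at h4
  have h5 := dvd_pow_of hpm hm (orderOf_dvd_of_pow_eq_one h4) (Nat.le_of_dvd Nat.card_pos (orderOf_dvd_natCard (z : F)))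
  have h6 : (z : F) ^ (m ^ Nat.card F) = 1 := orderOf_dvd_iff_pow_eq_one.mp h5
  have h7 : (z : Z ⧸ (Zm Z hZ m).subgroupOf Z) = 1 := (QuotientGroup.eq_one_iff _).mpr (Subgroup.mem_subgroupOf.mpr ⟨z.2, h6⟩)
  rw [h7, orderOf_one] at hx
  exact hp.one_lt.ne hx

include hm in
/-- the normal Hall subgroup -/
theorem exists_hall {G : Subgroup F} [hGn : G.Normal] (hZG : Z ≤ G) (hcop : m.Coprime (Z.relIndex G)) :
    ∃ K : Subgroup F, K.Normal ∧ K ≤ G ∧ (Nat.card (Zm Z hZ m)).Coprime (Nat.card K) ∧ m.Coprime (Nat.card K) ∧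
      (∀ g ∈ G, ∃ z ∈ Zm Z hZ m, ∃ k ∈ K, g = z * k) ∧ Nat.card (Zm Z hZ m) * Nat.card K = Nat.card G := by
  have hZmG : Zm Z hZ m ≤ G := (Zm_le hZ).trans hZG
  have hcZ : ∀ z ∈ Zm Z hZ m, ∀ g : F, g * z = z * g := fun z hz g => Subgroup.mem_center_iff.mp (hZ hz.1) g
  have hn : ((Zm Z hZ m).subgroupOf G).Normal := ⟨fun n hn g => by
    have h1 := hcZ n (Subgroup.mem_subgroupOf.mp hn) g
    have : g * n * g⁻¹ = n := by
      apply Subtype.ext
      push_cast
      rw [h1, mul_assoc, mul_inv_cancel, mul_one]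
    rwa [this]⟩
  have hcard : Nat.card ((Zm Z hZ m).subgroupOf G) = Nat.card (Zm Z hZ m) := Nat.card_congr (Subgroup.subgroupOfEquivOfLe hZmG).toEquiv
  have hidx : ((Zm Z hZ m).subgroupOf G).index = (Zm Z hZ m).relIndex Z * Z.relIndex G :=
    (Subgroup.relIndex_mul_relIndex _ _ _ (Zm_le hZ) hZG).symm
  have hm2 : m.Coprime ((Zm Z hZ m).relIndex Z * Z.relIndex G) := by
    apply Nat.Coprime.mul_right _ hcop
    by_contra hne
    obtain ⟨p, hp, hp1, hp2⟩ := Nat.Prime.not_coprime_iff_dvd.mp hne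
    exact prime_relIndex hZ hm hp hp1 hp2
  have hc1 : (Nat.card (Zm Z hZ m)).Coprime ((Zm Z hZ m).relIndex Z * Z.relIndex G) := by
    by_contra hne
    obtain ⟨p, hp, hp1, hp2⟩ := Nat.Prime.not_coprime_iff_dvd.mp hne
    have hpm := prime_Zm hZ hp hp1
    exact hp.one_lt.ne' (Nat.eq_one_of_dvd_coprimes hm2 hpm hp2)
  obtain ⟨K0, hK0⟩ := Subgroup.exists_right_complement'_of_coprime (N := (Zm Z hZ m).subgroupOf G) (by rw [hcard, hidx]; exact hc1)
  have hK0c : Nat.card K0 = (Zm Z hZ m).relIndex Z * Z.relIndex G := by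
    rw [← hidx]; exact hK0.symm.index_eq_card.symm
  have hKc : Nat.card (K0.map G.subtype) = Nat.card K0 :=
    Nat.card_congr (K0.equivMapOfInjective _ G.subtype_injective).toEquiv.symm
  have hdec : ∀ g ∈ G, ∃ z ∈ Zm Z hZ m, ∃ k ∈ K0.map G.subtype, g = z * k := by
    intro g hg
    have h1 : (⟨g, hg⟩ : G) ∈ (Zm Z hZ m).subgroupOf G ⊔ K0 := by rw [hK0.sup_eq_top]; trivial
    obtain ⟨z, hz, k, hk, hzk⟩ := Subgroup.mem_sup_of_normal_left.mp h1
    exact ⟨z, Subgroup.mem_subgroupOf.mp hz, k, ⟨k, hk, rfl⟩, by rw [← Subgroup.coe_mul, hzk]⟩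
  have hcc : (Nat.card (Zm Z hZ m)).Coprime (Nat.card (K0.map G.subtype)) := by rw [hKc, hK0c]; exact hc1
  have hchar : ∀ g : F, g ∈ K0.map G.subtype ↔ g ∈ G ∧ g ^ Nat.card (K0.map G.subtype) = 1 := by
    intro g
    constructor
    · intro h
      refine ⟨Subgroup.map_subtype_le _ h, ?_⟩
      have := pow_card_eq_one' (x := (⟨g, h⟩ : K0.map G.subtype))
      exact congrArg Subtype.val this
    · rintro ⟨hg, h⟩
      obtain ⟨z, hz, k, hk, rfl⟩ := hdec g hg
      have hcm : Commute z k := (hcZ z hz k).symm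
      rw [hcm.mul_pow] at h
      have h2 : k ^ Nat.card (K0.map G.subtype) = 1 := congrArg Subtype.val (pow_card_eq_one' (x := (⟨k, hk⟩ : K0.map G.subtype)))
      rw [h2, mul_one] at h
      have h3 : z ^ Nat.card (Zm Z hZ m) = 1 := congrArg Subtype.val (pow_card_eq_one' (x := (⟨z, hz⟩ : Zm Z hZ m)))
      have h4 : z = 1 := by
        have h5 := Nat.dvd_gcd (orderOf_dvd_of_pow_eq_one h3) (orderOf_dvd_of_pow_eq_one h)
        rw [hcc.gcd_eq_one, Nat.dvd_one] at h5
        exact orderOf_eq_one_iff.mp h5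
      rw [h4, one_mul]; exact hk
  refine ⟨K0.map G.subtype, ⟨fun n hn g => ?_⟩, Subgroup.map_subtype_le _, hcc, ?_, hdec, ?_⟩
  · rw [hchar] at hn ⊢
    refine ⟨hGn.conj_mem n hn.1 g, ?_⟩
    rw [conj_pow, hn.2, mul_one, mul_inv_cancel]
  · rw [hKc, hK0c]; exact hm2
  · rw [hKc, ← hcard]; exact hK0.card_mul_card

theorem mul_of_mlt {K Z0 : Subgroup F} [Fintype K] [Fintype Z0] (hZK : Z0 ≤ K) (hZc : Z0 ≤ Subgroup.center F)
    {χ : IrrCharacter K} {θ : IrrCharacter Z0} (h : mlt (Subgroup.inclusion hZK) χ θ ≠ 0) (k : K) (z : Z0) :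
    (χ : K → ℂ) (k * Subgroup.inclusion hZK z) = (θ : Z0 → ℂ) z * (χ : K → ℂ) k := by
  classical
  have hf : Fintype (Z0.subgroupOf K) := Fintype.ofFinite _
  let e : Z0 ≃* Z0.subgroupOf K := (Subgroup.subgroupOfEquivOfLe hZK).symm
  have hc : Z0.subgroupOf K ≤ Subgroup.center K := by
    intro x hx
    rw [Subgroup.mem_center_iff]
    intro g
    exact Subtype.ext (Subgroup.mem_center_iff.mp (hZc (Subgroup.mem_subgroupOf.mp hx)) g)
  have h1 : IsIrrCharacter (Z0.subgroupOf K) (fun x => (θ : Z0 → ℂ) (e.symm x)) := (isIrr_comp_iff e.symm).mpr θ.2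
  have h2 := mul_over hc h1 χ.2 (by
    intro h0
    apply h
    apply mlt_eq
    rw [Nat.cast_zero, ← h0, classInner, classInner, ← Equiv.sum_comp e.toEquiv, Nat.card_congr e.toEquiv]
    congr 1) k (e z)
  rw [MulEquiv.symm_apply_apply] at h2
  exact h2

/-- the central case -/
theorem central_case (G Z : Subgroup F) [Fintype G] [hGn : G.Normal] (hZG : Z ≤ G) (hZ : Z ≤ Subgroup.center F)
    (hcop : G.index.Coprime (Z.relIndex G))
    (hsolv : Group.IsSolvable (F ⧸ G) ∨ ∀ _ : (Z.subgroupOf G).Normal, Group.IsSolvable (G ⧸ Z.subgroupOf G)) (l : Z →* ℂˣ) :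
    ∃ β : IrrCharacter G, (∀ (g : G) (z : Z), (β : G → ℂ) (g * Subgroup.inclusion hZG z) = (l z : ℂ) * (β : G → ℂ) g) ∧
      ∀ (x : F) (g : G), (β : G → ℂ) ⟨x * g * x⁻¹, hGn.conj_mem g g.2 x⟩ = (β : G → ℂ) g := by
  classical
  have hm : G.index ≠ 0 := Subgroup.index_ne_zero_of_finite
  obtain ⟨K, hKn, hKG, hcc, hmK, hdec, hcard⟩ := exists_hall hZ hm hZG hcop
  generalize hY : Zm Z hZ G.index = Y at *
  have hYZ : Y ≤ Z := by rw [← hY]; exact Zm_le hZ
  have hKidx : K.index = Nat.card Y * G.index := by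
    have h1 := K.card_mul_index
    have h2 := G.card_mul_index
    rw [← h2, ← hcard] at h1
    have h3 : 0 < Nat.card K := Nat.card_pos
    apply Nat.eq_of_mul_eq_mul_left h3
    rw [h1]; ring
  have hKcop : (Nat.card K).Coprime K.index := by
    rw [hKidx]
    exact (Nat.Coprime.mul_left hcc hmK).symm
  obtain ⟨S, hS⟩ := Subgroup.exists_right_complement'_of_coprime hKcop
  have hScard : Nat.card S = K.index := hS.symm.index_eq_card.symm
  have hSK : Nrm S K := fun s _ k hk => hKn.conj_mem k hk s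
  let Z0 : Subgroup F := K ⊓ Z
  have hZ0K : Z0 ≤ K := inf_le_left
  have hZ0c : Z0 ≤ Subgroup.center F := inf_le_right.trans hZ
  have hSZ0 : Nrm S Z0 := by
    intro s _ z hz
    have : s * z * s⁻¹ = z := by rw [Subgroup.mem_center_iff.mp (hZ0c hz) s, mul_assoc, mul_inv_cancel, mul_one]
    rwa [this]
  have hKZ0 : Nrm K Z0 := by
    intro s _ z hz
    have : s * z * s⁻¹ = z := by rw [Subgroup.mem_center_iff.mp (hZ0c hz) s, mul_assoc, mul_inv_cancel, mul_one]
    rwa [this]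
  have hFK : Fintype K := Fintype.ofFinite _
  have hFZ0 : Fintype Z0 := Fintype.ofFinite _
  let l0 : Z0 →* ℂˣ := l.comp (Subgroup.inclusion inf_le_right)
  let θ : IrrCharacter Z0 := ⟨_, isIrr_of_hom_units l0⟩
  have hθ : TInv S (θ : Z0 → ℂ) := by
    intro s _ g g' hg
    have : g' = g := by
      apply Subtype.ext
      rw [hg, Subgroup.mem_center_iff.mp (hZ0c g.2) s, mul_assoc, mul_inv_cancel, mul_one]
    rw [this]
  have hex : ∃ χ : IrrCharacter K, mlt (Subgroup.inclusion hZ0K) χ θ ≠ 0 ∧ TInv S (χ : K → ℂ) := by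
    rcases hsolv with h | h
    · -- S is solvable
      have hSs : Group.IsSolvable S := by
        let g : S →* F ⧸ G := (QuotientGroup.mk' G).comp S.subtype
        have hker : ∀ a b : S, (a : F) ∈ G → (b : F) ∈ G → a * b = b * a := by
          intro a b ha hb
          obtain ⟨z, hz, k, hk, hzk⟩ := hdec a ha
          obtain ⟨z', hz', k', hk', hzk'⟩ := hdec b hb
          have h1 : (a : F) * b * (a : F)⁻¹ * (b : F)⁻¹ ∈ K := by
            have cz : ∀ x : F, x * z = z * x := fun x => Subgroup.mem_center_iff.mp (hZ (hYZ hz)) x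
            have cz' : ∀ x : F, x * z' = z' * x := fun x => Subgroup.mem_center_iff.mp (hZ (hYZ hz')) x
            have h2 : (a : F) * b * (a : F)⁻¹ * (b : F)⁻¹ = k * k' * k⁻¹ * k'⁻¹ := by
              rw [hzk, hzk']
              calc z * k * (z' * k') * (z * k)⁻¹ * (z' * k')⁻¹ = z * (k * z') * k' * k⁻¹ * z⁻¹ * k'⁻¹ * z'⁻¹ := by group
                _ = z * z' * (k * k' * k⁻¹) * z⁻¹ * k'⁻¹ * z'⁻¹ := by rw [cz' k]; group
                _ = (z * (z' * (k * k' * k⁻¹))) * z⁻¹ * k'⁻¹ * z'⁻¹ := by group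
                _ = ((z' * (k * k' * k⁻¹)) * z) * z⁻¹ * k'⁻¹ * z'⁻¹ := by rw [← cz (z' * (k * k' * k⁻¹))]
                _ = z' * (k * k' * k⁻¹ * k'⁻¹) * z'⁻¹ := by group
                _ = (k * k' * k⁻¹ * k'⁻¹) * z' * z'⁻¹ := by rw [cz' (k * k' * k⁻¹ * k'⁻¹)]
                _ = _ := by group
            rw [h2]
            exact K.mul_mem (K.mul_mem (K.mul_mem hk hk') (K.inv_mem hk)) (K.inv_mem hk')
          have h3 : (a : F) * b * (a : F)⁻¹ * (b : F)⁻¹ ∈ S :=
            S.mul_mem (S.mul_mem (S.mul_mem a.2 b.2) (S.inv_mem a.2)) (S.inv_mem b.2)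
          have h4 : (a : F) * b * (a : F)⁻¹ * (b : F)⁻¹ = 1 := Subgroup.disjoint_def.mp hS.disjoint h1 h3
          apply Subtype.ext
          rw [mul_inv_eq_one, mul_inv_eq_iff_eq_mul] at h4
          exact h4
        have hk1 : Group.IsSolvable g.ker := by
          apply Group.isSolvable_of_comm
          intro a b
          apply Subtype.ext
          apply hker
          · exact (QuotientGroup.eq_one_iff _).mp a.2
          · exact (QuotientGroup.eq_one_iff _).mp b.2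
        exact Group.isSolvable_of_ker_le_range g.ker.subtype g (by rw [Subgroup.range_subtype])
      exact exists_inv_over hSK hSZ0 hSs hZ0K hKZ0 (by rw [hScard]; exact hKcop) θ hθ
    · refine up_solv hSK hSZ0 hZ0K hKZ0 ?_ ?_ θ hθ
      · rw [hScard]
        exact Nat.Coprime.coprime_dvd_left (Subgroup.relIndex_dvd_card _ _) hKcop
      · intro hn
        have hn' : (Z.subgroupOf G).Normal := ⟨fun n hn g => by
          have : g * n * g⁻¹ = n := by
            apply Subtype.ext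
            have := Subgroup.mem_center_iff.mp (hZ (Subgroup.mem_subgroupOf.mp hn)) g
            push_cast
            rw [this, mul_assoc, mul_inv_cancel, mul_one]
          rwa [this]⟩
        have := h hn'
        let f : K →* G ⧸ Z.subgroupOf G := (QuotientGroup.mk' (Z.subgroupOf G)).comp (Subgroup.inclusion hKG)
        have hf : f.ker = Z0.subgroupOf K := by
          ext x
          rw [MonoidHom.mem_ker, Subgroup.mem_subgroupOf]
          constructor
          · intro hx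
            have h5 : Subgroup.inclusion hKG x ∈ Z.subgroupOf G := (QuotientGroup.eq_one_iff _).mp hx
            exact ⟨x.2, Subgroup.mem_subgroupOf.mp h5⟩
          · intro hx
            exact (QuotientGroup.eq_one_iff _).mpr (Subgroup.mem_subgroupOf.mpr hx.2)
        let f' : K ⧸ Z0.subgroupOf K →* G ⧸ Z.subgroupOf G := QuotientGroup.lift _ f (by rw [← hf])
        have hinj : Function.Injective f' := by
          rw [injective_iff_map_eq_one]
          intro x hx
          obtain ⟨y, rfl⟩ := QuotientGroup.mk_surjective x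
          rw [QuotientGroup.eq_one_iff, ← hf]
          exact hx
        exact Group.isSolvable_of_isSolvable_injective hinj
  obtain ⟨χ, hχ1, hχ2⟩ := hex
  have hχz := fun k z => mul_of_mlt hZ0K hZ0c hχ1 k z
  -- powers
  obtain ⟨a, ha1, ha2⟩ := Nat.chineseRemainder hcc 0 1
  obtain ⟨b, hb1, hb2⟩ := Nat.chineseRemainder hcc 1 0
  have hYord : ∀ y ∈ Y, orderOf y ∣ Nat.card Y := fun y hy => by
    have := orderOf_dvd_natCard (⟨y, hy⟩ : Y)
    rwa [Subgroup.orderOf_mk] at this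
  have hKord : ∀ y ∈ K, orderOf y ∣ Nat.card K := fun y hy => by
    have := orderOf_dvd_natCard (⟨y, hy⟩ : K)
    rwa [Subgroup.orderOf_mk] at this
  have hYa : ∀ y ∈ Y, y ^ a = 1 := fun y hy => by
    have := pow_eq_pow_iff_modEq.mpr (ha1.of_dvd (hYord y hy))
    rwa [pow_zero] at this
  have hYb : ∀ y ∈ Y, y ^ b = y := fun y hy => by
    have := pow_eq_pow_iff_modEq.mpr (hb1.of_dvd (hYord y hy))
    rwa [pow_one] at this
  have hKa : ∀ y ∈ K, y ^ a = y := fun y hy => by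
    have := pow_eq_pow_iff_modEq.mpr (ha2.of_dvd (hKord y hy))
    rwa [pow_one] at this
  have hKb : ∀ y ∈ K, y ^ b = 1 := fun y hy => by
    have := pow_eq_pow_iff_modEq.mpr (hb2.of_dvd (hKord y hy))
    rwa [pow_zero] at this
  have hYc : ∀ y ∈ Y, ∀ g : F, Commute y g := fun y hy g => (Subgroup.mem_center_iff.mp (hZ (hYZ hy)) g).symm
  have hga : ∀ y ∈ Y, ∀ k ∈ K, (y * k) ^ a = k := fun y hy k hk => by
    rw [(hYc y hy k).mul_pow, hYa y hy, hKa k hk, one_mul]
  have hgb : ∀ y ∈ Y, ∀ k ∈ K, (y * k) ^ b = y := fun y hy k hk => by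
    rw [(hYc y hy k).mul_pow, hYb y hy, hKb k hk, mul_one]
  have hma : ∀ g ∈ G, g ^ a ∈ K := fun g hg => by
    obtain ⟨y, hy, k, hk, rfl⟩ := hdec g hg
    rw [hga y hy k hk]; exact hk
  have hmb : ∀ g ∈ G, g ^ b ∈ Y := fun g hg => by
    obtain ⟨y, hy, k, hk, rfl⟩ := hdec g hg
    rw [hgb y hy k hk]; exact hy
  have hmm : ∀ g ∈ G, ∀ h ∈ G, (g * h) ^ a = g ^ a * h ^ a ∧ (g * h) ^ b = g ^ b * h ^ b := fun g hg h hh => by
    obtain ⟨y, hy, k, hk, rfl⟩ := hdec g hg
    obtain ⟨y', hy', k', hk', rfl⟩ := hdec h hh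
    have e1 : y * k * (y' * k') = (y * y') * (k * k') := by
      rw [mul_assoc y k, ← mul_assoc k y', (hYc y' hy' k).symm.eq]; group
    rw [e1, hga _ (Y.mul_mem hy hy') _ (K.mul_mem hk hk'), hgb _ (Y.mul_mem hy hy') _ (K.mul_mem hk hk'), hga y hy k hk, hgb y hy k hk,
      hga y' hy' k' hk', hgb y' hy' k' hk']
    exact ⟨rfl, rfl⟩
  let f1 : G →* K :=
    { toFun := fun g => ⟨(g : F) ^ a, hma g g.2⟩
      map_one' := Subtype.ext (by simp)
      map_mul' := fun x y => Subtype.ext (by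
        push_cast
        exact (hmm x x.2 y y.2).1) }
  let f2 : G →* Z :=
    { toFun := fun g => ⟨(g : F) ^ b, hYZ (hmb g g.2)⟩
      map_one' := Subtype.ext (by simp)
      map_mul' := fun x y => Subtype.ext (by
        push_cast
        exact (hmm x x.2 y y.2).2) }
  have hf1 : Function.Surjective f1 := by
    intro k
    exact ⟨⟨k, hKG k.2⟩, Subtype.ext (hKa k k.2)⟩
  let β : IrrCharacter G := ⟨_, IsIrr.mul_linear (IsIrr.comp χ.2 f1 hf1) (IsIrr.isCharacter (isIrr_of_hom_units (l.comp f2))) (by simp)⟩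
  have hβ : ∀ g : G, (β : G → ℂ) g = (l (f2 g) : ℂ) * (χ : K → ℂ) (f1 g) := fun g => rfl
  -- invariance of `χ` under the whole group
  have hχF : ∀ (x : F) (k k' : K), (k' : F) = x * k * x⁻¹ → (χ : K → ℂ) k' = (χ : K → ℂ) k := by
    intro x k k' hk'
    have hx : x ∈ K ⊔ S := by rw [hS.sup_eq_top]; trivial
    obtain ⟨u, hu, s, hs, rfl⟩ := Subgroup.mem_sup_of_normal_left.mp hx
    have h1 : s * (k : F) * s⁻¹ ∈ K := hSK s hs k k.2
    have h2 := hχ2 s hs k ⟨_, h1⟩ rfl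
    rw [← h2, ← IsIrr.isClass χ.2 ⟨_, h1⟩ ⟨u, hu⟩]
    refine congrArg (χ : K → ℂ) (Subtype.ext ?_)
    rw [hk']
    push_cast
    group
  refine ⟨β, ?_, ?_⟩
  · intro g z
    rw [hβ, hβ, map_mul, map_mul, map_mul]
    have hz1 : ((f1 (Subgroup.inclusion hZG z) : K) : F) ∈ Z0 := ⟨(f1 (Subgroup.inclusion hZG z)).2, by
      show (z : F) ^ a ∈ Z
      exact Z.pow_mem z.2 a⟩
    have h1 := hχz (f1 g) ⟨_, hz1⟩
    have h2 : Subgroup.inclusion hZ0K ⟨_, hz1⟩ = f1 (Subgroup.inclusion hZG z) := rfl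
    rw [h2] at h1
    rw [h1]
    have h3 : ((θ : Z0 → ℂ) ⟨_, hz1⟩) = (l (z ^ a) : ℂ) := rfl
    have h4 : f2 (Subgroup.inclusion hZG z) = z ^ b := rfl
    rw [h3, h4, Units.val_mul]
    have h5 : l z = l (z ^ b) * l (z ^ a) := by
      rw [← map_mul, ← pow_add]
      congr 1
      apply Subtype.ext
      obtain ⟨y, hy, k, hk, hyk⟩ := hdec z (hZG z.2)
      push_cast
      rw [pow_add, hyk, hgb y hy k hk, hga y hy k hk]
    rw [h5, Units.val_mul]; ring
  · intro x g
    rw [hβ, hβ]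
    have h1 : f2 ⟨x * g * x⁻¹, hGn.conj_mem g g.2 x⟩ = f2 g := by
      apply Subtype.ext
      show (x * g * x⁻¹) ^ b = (g : F) ^ b
      rw [conj_pow]
      have := hYc _ (hmb g g.2) x
      rw [← this.eq, mul_assoc, mul_inv_cancel, mul_one]
    rw [h1]
    congr 1
    apply hχF x
    show (x * g * x⁻¹) ^ a = x * (g : F) ^ a * x⁻¹
    rw [conj_pow]

end Cfsg.Agent.H3.CCase
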