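import Mathlib
import Cfsg.Agent.H3_CCase
import Cfsg.Agent.H3_Lift

/-!
# Invariant characters above an invariant character
-/

set_option autoImplicit false

open scoped ComplexConjugate commutatorElement

namespace Cfsg.Agent.H3.Triple

open Cfsg Cfsg.Agent.H3.CharBasic Cfsg.Agent.H3.CharIrr Cfsg.Agent.H3.CharComplete Cfsg.Agent.H3.CharInd
  Cfsg.Agent.H3.CharMult Cfsg.Agent.H3.Clifford Cfsg.Agent.H3.CharQuot Cfsg.Agent.H3.Lift Cfsg.Agent.H3.CentOver
  Cfsg.Agent.H3.CCase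

theorem solv_iff {X : Type*} [Group X] {Y : Subgroup X} [Y.Normal] : Group.IsSolvable (X ⧸ Y) ↔ ∃ m, derivedSeries X m ≤ Y := by
  constructor
  · rintro ⟨m, hm⟩
    refine ⟨m, ?_⟩
    have h2 := map_derivedSeries_eq (QuotientGroup.mk'_surjective Y) m
    rw [hm, Subgroup.map_eq_bot_iff, QuotientGroup.ker_mk'] at h2
    exact h2
  · rintro ⟨m, hm⟩
    refine ⟨m, ?_⟩
    rw [← map_derivedSeries_eq (QuotientGroup.mk'_surjective Y) m, Subgroup.map_eq_bot_iff, QuotientGroup.ker_mk']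
    exact hm

/-- descent along a surjection -/
theorem IsIrr.descend_surj {A B : Type*} [Group A] [Finite A] [Group B] {f : A →* B} (hf : Function.Surjective f) {χ : A → ℂ}
    (hχ : IsIrrCharacter A χ) (hker : ∀ a ∈ f.ker, χ a = χ 1) : ∃ χ' : B → ℂ, IsIrrCharacter B χ' ∧ ∀ a, χ' (f a) = χ a := by
  obtain ⟨ψ, hψ, hψ'⟩ := IsIrr.descend hχ f.ker hker
  let e := QuotientGroup.quotientKerEquivOfSurjective f hf
  refine ⟨fun b => ψ (e.symm b), (isIrr_comp_iff e.symm).mpr hψ, fun a => ?_⟩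
  rw [← hψ' a]
  have : e.symm (f a) = (a : A ⧸ f.ker) := by
    rw [MulEquiv.symm_apply_eq]; rfl
  show ψ (e.symm (f a)) = _
  rw [this]

/-- a character with irreducible restriction is irreducible -/
theorem irr_of_res {A : Type*} [Group A] [Fintype A] {B : Subgroup A} [Fintype B] {χ : A → ℂ} (hχ : IsCharacter A χ)
    (h : IsIrrCharacter B (fun x : B => χ x)) : IsIrrCharacter A χ := by
  have h1 : χ 1 ≠ 0 := by
    have := IsIrr.one_ne_zero h
    exact this
  obtain ⟨η, hη, hc⟩ := exists_constituent hχ (fun h0 => h1 (by rw [h0]; rfl))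
  have hηB : IsCharacter B (fun x : B => η x) := IsChar.res (IsIrr.isCharacter hη) B
  obtain ⟨τ, hτ, hτc⟩ := exists_constituent hηB (fun h0 => IsIrr.one_ne_zero hη (congrFun h0 1))
  obtain ⟨n, hn⟩ := ci_char_nat hχ (IsIrr.isCharacter hη)
  have hn1 : 1 ≤ n := by
    rcases Nat.eq_zero_or_pos n with h0 | h0
    · rw [h0, Nat.cast_zero] at hn; exact absurd hn hc
    · exact h0
  have hsub := IsChar.res (IsChar.sub_constituent hχ hη hn hn1) B
  obtain ⟨a, ha⟩ := ci_char_nat hηB (IsIrr.isCharacter hτ)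
  obtain ⟨b, hb⟩ := ci_char_nat hsub (IsIrr.isCharacter hτ)
  have e1 : (fun x : B => χ x) = (fun x : B => η x) + (fun x : B => (χ - ((1 : ℕ) : ℂ) • η) x) := by
    funext x
    simp
  have e2 : classInner (fun x : B => χ x) τ = ((a + b : ℕ) : ℂ) := by
    rw [e1, ci_add_left, ha, hb]; push_cast; ring
  have ha0 : a ≠ 0 := by rintro rfl; exact hτc (by rw [ha]; simp)
  have e3 : (fun x : B => χ x) = τ := by
    by_contra hne
    rw [ci_irr_ne h hτ hne] at e2
    have : a + b = 0 := by exact_mod_cast e2.symm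
    omega
  obtain ⟨x, -, hx⟩ := IsIrr.one_eq_nat hη
  obtain ⟨y, -, hy⟩ := IsIrr.one_eq_nat hτ
  have hχ1 : χ 1 = y := by rw [← hy, ← e3]; rfl
  have l1 := IsChar.degree_le' hηB hτ hτc (a := x) (by exact hx) hy
  have l2 := IsChar.degree_le' hχ hη hc hχ1 hx
  have : x = y := le_antisymm l2 l1
  rw [IsChar.eq_of_degree hχ hη hc (by rw [hχ1, hx, this])]
  exact hη

theorem main {Γ : Type*} [Group Γ] [Fintype Γ] (G N : Subgroup Γ) [hG : G.Normal] [hN : N.Normal] [Fintype G] [Fintype N] (hNG : N ≤ G)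
    (hcop : (G.index).Coprime (N.relIndex G)) (hsolv : Group.IsSolvable (Γ ⧸ G) ∨ Group.IsSolvable (G ⧸ N.subgroupOf G))
    {θ : N → ℂ} (hθ : IsIrrCharacter N θ) (hinv : ∀ (x : Γ) (n : N), θ ⟨x * n * x⁻¹, hN.conj_mem n n.2 x⟩ = θ n) :
    ∃ χ : G → ℂ, IsIrrCharacter G χ ∧ classInner (fun n : N => χ ⟨n, hNG n.2⟩) θ ≠ 0 ∧
      ∀ (x : Γ) (g : G), χ ⟨x * g * x⁻¹, hG.conj_mem g g.2 x⟩ = χ g := by
  classical
  obtain ⟨E, _, _, π, j, ϑ, hsurj, hπj, hjn, hkc, hϑ, hext⟩ := exists_lift N θ hθ hinv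
  have := Fintype.ofFinite E
  have hjinj : Function.Injective j := by
    intro a b hab
    have := congrArg π hab
    rw [hπj, hπj] at this
    exact Subtype.ext this
  have hfJ := Fintype.ofFinite j.range
  let J := j.range
  let Gh : Subgroup E := G.comap π
  have hGh : Gh.Normal := hG.comap π
  have hJG : J ≤ Gh := by
    rintro _ ⟨n, rfl⟩
    show π (j n) ∈ G
    rw [hπj]; exact hNG n.2
  have hfG := Fintype.ofFinite Gh
  let q : E →* E ⧸ J := QuotientGroup.mk' J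
  have hq : Function.Surjective q := QuotientGroup.mk'_surjective J
  have hkerq : q.ker = J := QuotientGroup.ker_mk' J
  have hZG : π.ker ≤ Gh := by
    intro z hz
    show π z ∈ G
    rw [MonoidHom.mem_ker.mp hz]; exact G.one_mem
  have hJZ : ∀ z, z ∈ J → z ∈ π.ker → z = 1 := by
    rintro _ ⟨n, rfl⟩ hz
    rw [MonoidHom.mem_ker, hπj] at hz
    have : n = 1 := Subtype.ext hz
    rw [this, map_one]
  -- the central character
  have hfZ := Fintype.ofFinite π.ker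
  obtain ⟨ψ, hψ, hψc⟩ := exists_constituent_res (H := π.ker) hϑ
  have hψ1 := psi_one hkc hψ
  obtain ⟨ω, hω⟩ := IsChar.hom_units_of_one (IsIrr.isCharacter hψ) hψ1
  have hϑz : ∀ (e : E) (z : π.ker), ϑ (e * z) = (ω z : ℂ) * ϑ e := fun e z => by
    rw [mul_over hkc hψ hϑ hψc e z, hω]
  -- groups in the quotient
  have hfF := Fintype.ofFinite (E ⧸ J)
  let G' : Subgroup (E ⧸ J) := Gh.map q
  have hG' : G'.Normal := hGh.map q hq
  have hfG' := Fintype.ofFinite G'
  let qz : π.ker →* E ⧸ J := q.comp π.ker.subtype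
  have hqz : Function.Injective qz := by
    rw [injective_iff_map_eq_one]
    intro z hz
    apply Subtype.ext
    apply hJZ z _ z.2
    rw [← hkerq]
    exact hz
  let Z' : Subgroup (E ⧸ J) := qz.range
  let ez : π.ker ≃* Z' := MonoidHom.ofInjective hqz
  have hZG' : Z' ≤ G' := by
    rintro _ ⟨z, rfl⟩
    exact ⟨z, hZG z.2, rfl⟩
  have hZc' : Z' ≤ Subgroup.center (E ⧸ J) := by
    rintro _ ⟨z, rfl⟩
    rw [Subgroup.mem_center_iff]
    intro x
    obtain ⟨e, rfl⟩ := hq x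
    show q e * q z = q z * q e
    rw [← map_mul, ← map_mul, Subgroup.mem_center_iff.mp (hkc z.2) e]
  have hidx1 : G'.index = G.index := by
    have h1 : G'.index = Gh.index := Subgroup.index_map_eq _ hq (by rw [hkerq]; exact hJG)
    rw [h1]; exact Subgroup.index_comap_of_surjective _ hsurj
  have hZ'eq : Z' = (N.comap π).map q := by
    apply le_antisymm
    · rintro _ ⟨z, rfl⟩
      exact ⟨z, by show π z ∈ N; rw [MonoidHom.mem_ker.mp z.2]; exact N.one_mem, rfl⟩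
    · rintro _ ⟨e, he, rfl⟩
      have he' : π e ∈ N := he
      have h1 : (j ⟨π e, he'⟩)⁻¹ * e ∈ π.ker := by
        rw [MonoidHom.mem_ker, map_mul, map_inv, hπj, inv_mul_cancel]
      refine ⟨⟨_, h1⟩, ?_⟩
      show q ((j ⟨π e, he'⟩)⁻¹ * e) = q e
      rw [map_mul, map_inv]
      have h2 : q (j ⟨π e, he'⟩) = 1 := by
        rw [← MonoidHom.mem_ker, hkerq]; exact ⟨_, rfl⟩
      rw [h2, inv_one, one_mul]
  have hidx2 : Z'.index = N.index := by
    rw [hZ'eq]
    have h1 : ((N.comap π).map q).index = (N.comap π).index := Subgroup.index_map_eq _ hq (by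
      rw [hkerq]
      rintro _ ⟨n, rfl⟩
      show π (j n) ∈ N
      rw [hπj]; exact n.2)
    rw [h1]; exact Subgroup.index_comap_of_surjective _ hsurj
  have hrel : Z'.relIndex G' = N.relIndex G := by
    have h1 := Subgroup.relIndex_mul_index hZG'
    have h2 := Subgroup.relIndex_mul_index hNG
    rw [hidx1, hidx2] at h1
    have h3 : 0 < G.index := Nat.pos_of_ne_zero Subgroup.index_ne_zero_of_finite
    exact Nat.eq_of_mul_eq_mul_right h3 (h1.trans h2.symm)
  -- apply the central case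
  obtain ⟨β', hβ1, hβ2⟩ := central_case G' Z' hZG' hZc' (by rw [hidx1, hrel]; exact hcop) (by
    rcases hsolv with h | h
    · left
      rw [solv_iff] at h ⊢
      obtain ⟨m, hm⟩ := h
      refine ⟨m, ?_⟩
      rw [← map_derivedSeries_eq hq m]
      apply Subgroup.map_mono
      intro e he
      apply hm
      rw [← map_derivedSeries_eq hsurj m]
      exact ⟨e, he, rfl⟩
    · right
      intro hn
      rw [solv_iff] at h ⊢
      obtain ⟨m, hm⟩ := h
      refine ⟨m, ?_⟩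
      let qr : Gh →* G' := (q.comp Gh.subtype).codRestrict G' (fun x => ⟨x, x.2, rfl⟩)
      have hqr : Function.Surjective qr := by
        rintro ⟨_, e, he, rfl⟩
        exact ⟨⟨e, he⟩, rfl⟩
      let πr : Gh →* G := (π.comp Gh.subtype).codRestrict G (fun x => x.2)
      rw [← map_derivedSeries_eq hqr m]
      rintro _ ⟨e, he, rfl⟩
      have h1 : πr e ∈ derivedSeries G m := map_derivedSeries_le_derivedSeries πr m ⟨e, he, rfl⟩
      have h2 : π e ∈ N := Subgroup.mem_subgroupOf.mp (hm h1)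
      rw [Subgroup.mem_subgroupOf, hZ'eq]
      exact ⟨e, h2, rfl⟩) ((ω⁻¹).comp ez.symm.toMonoidHom)
  let qr : Gh →* G' := (q.comp Gh.subtype).codRestrict G' (fun x => ⟨x, x.2, rfl⟩)
  have hqr : Function.Surjective qr := by
    rintro ⟨_, e, he, rfl⟩
    exact ⟨⟨e, he⟩, rfl⟩
  let πr : Gh →* G := (π.comp Gh.subtype).codRestrict G (fun x => x.2)
  have hπr : Function.Surjective πr := by
    intro g
    obtain ⟨e, he⟩ := hsurj g
    exact ⟨⟨e, by show π e ∈ G; rw [he]; exact g.2⟩, Subtype.ext he⟩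
  -- the restriction of ϑ
  have hfJG := Fintype.ofFinite (J.subgroupOf Gh)
  let eN : N ≃* J.subgroupOf Gh := (MonoidHom.ofInjective hjinj).trans (Subgroup.subgroupOfEquivOfLe hJG).symm
  have heN : ∀ n, (((eN n : J.subgroupOf Gh) : Gh) : E) = j n := fun n => rfl
  have hres1 : IsIrrCharacter (J.subgroupOf Gh) (fun x : J.subgroupOf Gh => ϑ ((x : Gh) : E)) := by
    rw [← isIrr_comp_iff eN]
    have h1 : (fun n : N => ϑ (((eN n : J.subgroupOf Gh) : Gh) : E)) = θ := by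
      funext n; rw [heN, hext]
    rw [h1]; exact hθ
  have hres2 : IsIrrCharacter Gh (fun g : Gh => ϑ g) := irr_of_res (IsChar.res (IsIrr.isCharacter hϑ) Gh) hres1
  have hJn : (J.subgroupOf Gh).Normal := hjn.subgroupOf Gh
  have hβirr : IsIrrCharacter Gh (fun g => (β' : G' → ℂ) (qr g)) := IsIrr.comp β'.2 qr hqr
  have hqJ : ∀ n ∈ J.subgroupOf Gh, qr n = 1 := by
    intro n hn
    apply Subtype.ext
    show q n = 1
    rw [← MonoidHom.mem_ker, hkerq]
    exact Subgroup.mem_subgroupOf.mp hn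
  have hη := gallagher_irr hJn hres2 hres1 hβirr (by
    intro n hn g
    show (β' : G' → ℂ) (qr (n * g)) = (β' : G' → ℂ) (qr g)
    rw [map_mul, hqJ n hn, one_mul])
  have hηz : ∀ z : Gh, (z : E) ∈ π.ker → ∀ g : Gh, ((fun g => (β' : G' → ℂ) (qr g)) * fun g : Gh => ϑ g) (g * z) =
      ((fun g => (β' : G' → ℂ) (qr g)) * fun g : Gh => ϑ g) g := by
    intro z hz g
    have h1 := hϑz g ⟨z, hz⟩
    have h2 := hβ1 (qr g) (ez ⟨z, hz⟩)
    have h3 : qr g * Subgroup.inclusion hZG' (ez ⟨z, hz⟩) = qr (g * z) := rfl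
    rw [h3] at h2
    have h4 : ((ω⁻¹).comp ez.symm.toMonoidHom) (ez ⟨z, hz⟩) = (ω ⟨z, hz⟩)⁻¹ := by
      show ω⁻¹ (ez.symm (ez ⟨z, hz⟩)) = _
      rw [MulEquiv.symm_apply_apply]; rfl
    rw [h4] at h2
    show (β' : G' → ℂ) (qr (g * z)) * ϑ ((g : E) * z) = (β' : G' → ℂ) (qr g) * ϑ g
    have h5 : ϑ ((g : E) * z) = (ω ⟨z, hz⟩ : ℂ) * ϑ g := h1
    rw [h2, h5]
    have h6 : (((ω ⟨z, hz⟩)⁻¹ : ℂˣ) : ℂ) * (ω ⟨z, hz⟩ : ℂ) = 1 := by rw [← Units.val_mul, inv_mul_cancel, Units.val_one]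
    linear_combination ((β' : G' → ℂ) (qr g) * ϑ g) * h6
  obtain ⟨χ, hχ, hχη⟩ := IsIrr.descend_surj hπr hη (by
    intro a ha
    have h1 : (a : E) ∈ π.ker := by
      rw [MonoidHom.mem_ker]
      exact congrArg Subtype.val (MonoidHom.mem_ker.mp ha)
    have := hηz a h1 1
    rwa [one_mul] at this)
  have hχη' : ∀ a : Gh, χ (πr a) = (β' : G' → ℂ) (qr a) * ϑ a := hχη
  refine ⟨χ, hχ, ?_, ?_⟩
  · have h1 : (fun n : N => χ ⟨n, hNG n.2⟩) = (β' : G' → ℂ) 1 • θ := by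
      funext n
      have hjG : j n ∈ Gh := hJG ⟨n, rfl⟩
      have h2 : (⟨n, hNG n.2⟩ : G) = πr ⟨j n, hjG⟩ := Subtype.ext (hπj n).symm
      rw [h2, hχη', hqJ ⟨j n, hjG⟩ (Subgroup.mem_subgroupOf.mpr ⟨n, rfl⟩)]
      show (β' : G' → ℂ) 1 * ϑ (j n) = _
      rw [hext]; rfl
    rw [h1, ci_smul_left, ci_irr_self hθ, mul_one]
    exact IsIrr.one_ne_zero β'.2
  · intro x g
    obtain ⟨xe, rfl⟩ := hsurj x
    obtain ⟨ge, rfl⟩ := hπr g
    have h1 : (⟨π xe * (πr ge : Γ) * (π xe)⁻¹, hG.conj_mem _ (πr ge).2 (π xe)⟩ : G) = πr ⟨xe * ge * xe⁻¹, hGh.conj_mem _ ge.2 xe⟩ := by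
      apply Subtype.ext
      show π xe * π ge * (π xe)⁻¹ = π (xe * ge * xe⁻¹)
      rw [map_mul, map_mul, map_inv]
    rw [h1, hχη', hχη']
    have h2 := hβ2 (q xe) (qr ge)
    have h3 : (⟨q xe * (qr ge : E ⧸ J) * (q xe)⁻¹, hG'.conj_mem _ (qr ge).2 (q xe)⟩ : G') = qr ⟨xe * ge * xe⁻¹, hGh.conj_mem _ ge.2 xe⟩ := by
      apply Subtype.ext
      show q xe * q ge * (q xe)⁻¹ = q (xe * ge * xe⁻¹)
      rw [map_mul, map_mul, map_inv]
    rw [h3] at h2
    rw [h2]
    congr 1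
    exact IsIrr.isClass hϑ ge xe

end Cfsg.Agent.H3.Triple
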