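import Mathlib
import Cfsg.Prelude.Def_Characters
import Cfsg.Agent.H3_GalOrb
import Cfsg.Agent.H3_GlInv
import Cfsg.Agent.H3_CharQuot
import Cfsg.Agent.H3_CycExt
import Cfsg.Agent.H3_Triple
import Cfsg.Agent.H3_GlCyc
import Cfsg.Agent.H3_NilpSplit
import Cfsg.Agent.H25_Brauer
import Cfsg.Agent.H1_Basic

/-!
# Galois-fixed characters over a normal subgroup of odd index
-/

set_option autoImplicit false

open scoped ComplexConjugate

universe u

namespace Cfsg.Agent.H3.OddFix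

open Cfsg Cfsg.Agent.H3.CharBasic Cfsg.Agent.H3.CharIrr Cfsg.Agent.H3.CharComplete Cfsg.Agent.H3.CharInd
  Cfsg.Agent.H3.CharMult Cfsg.Agent.H3.Clifford Cfsg.Agent.H3.GalProd Cfsg.Agent.H3.GalOrb Cfsg.Agent.H3.GlInv
  Cfsg.Agent.H3.CharQuot

section A

variable {G : Type*} [Group G] [Fintype G] {N : Subgroup G} (hN : N.Normal) [Fintype N]

omit [Fintype G] in
/-- lying over -/
def Ov (N : Subgroup G) [Fintype N] (θ : N → ℂ) (χ : G → ℂ) : Prop := classInner (fun n : N => χ n) θ ≠ 0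

include hN in
theorem ov_mul {θ : N → ℂ} (hθ : IsIrrCharacter N θ) {χ ψ β : G → ℂ} (hχ : IsIrrCharacter G χ) (hψ : IsIrrCharacter G ψ)
    (hβ : IsCharacter G β) (hβN : ∀ n ∈ N, β n = β 1) (h1 : Ov N θ χ) (h2 : classInner (β * χ) ψ ≠ 0) : Ov N θ ψ := by
  obtain ⟨θ', hθ', h3⟩ := exists_constituent_res (H := N) hψ
  have h4 : classInner (indFun N θ') ψ ≠ 0 := (constituent_ind_iff (IsIrr.isCharacter hψ)).mpr h3
  have h5 := ci_ne_zero (IsChar.mul hβ (IsIrr.isCharacter hχ)) (IsChar.ind (IsIrr.isCharacter hθ')) hψ h2 h4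
  have h6 : classInner (indFun N θ') (β * χ) ≠ 0 := by
    rw [← ci_conj_symm]
    intro h
    exact h5 ((map_eq_zero _).mp h)
  rw [constituent_ind_iff (IsChar.mul hβ (IsIrr.isCharacter hχ))] at h6
  have h7 : (fun h : N => (β * χ) h) = β 1 • fun h : N => χ h := by
    funext h
    rw [Pi.mul_apply, hβN h h.2, Pi.smul_apply, smul_eq_mul]
  rw [h7, ci_smul_left] at h6
  have h8 : classInner (fun n : N => χ n) θ' ≠ 0 := right_ne_zero_of_mul h6
  obtain ⟨g, hg⟩ := eq_cj_of_constituents hN hχ hθ hθ' h1 h8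
  rw [hg, cj_ci_res hN (IsIrr.isClass hψ)] at h3
  exact h3

open Classical in
/-- the characters above `θ` -/
noncomputable def II [Fintype (IrrCharacter G)] (N : Subgroup G) [Fintype N] (θ : N → ℂ) : Finset (IrrCharacter G) :=
  Finset.univ.filter (fun χ : IrrCharacter G => Ov N θ (χ : G → ℂ))

omit [Fintype G] in
theorem mem_II [Fintype (IrrCharacter G)] {θ : N → ℂ} {χ : IrrCharacter G} : χ ∈ II N θ ↔ Ov N θ (χ : G → ℂ) := by
  classical
  rw [II, Finset.mem_filter]
  exact ⟨fun h => h.2, fun h => ⟨Finset.mem_univ _, h⟩⟩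

/-- the sum over the characters above `θ` -/
noncomputable def KK [Fintype (IrrCharacter G)] (N : Subgroup G) [Fintype N] (θ : N → ℂ) (x y : G) : ℂ :=
  ∑ χ ∈ II N θ, (χ : G → ℂ) x * conj ((χ : G → ℂ) y)

include hN in
theorem KK_mul [Fintype (IrrCharacter G)] {θ : N → ℂ} (hθ : IsIrrCharacter N θ) {β : G → ℂ} (hβ : IsCharacter G β)
    (hβN : ∀ n ∈ N, β n = β 1) (x y : G) : β x * KK N θ x y = β y * KK N θ x y := by
  classical
  have hβc : IsCharacter G (fun g => conj (β g)) := IsChar.conj hβ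
  have e1 : ∀ (b : G → ℂ) (hb : IsCharacter G b) (hbN : ∀ n ∈ N, b n = b 1) (χ : IrrCharacter G), Ov N θ (χ : G → ℂ) → ∀ z : G,
      b z * (χ : G → ℂ) z = ∑ ψ ∈ II N θ,
        classInner (b * (χ : G → ℂ)) ψ * (ψ : G → ℂ) z := by
    intro b hb hbN χ hχ z
    have h1 := expand_apply (b * (χ : G → ℂ)) (IsChar.isClass (IsChar.mul hb (IsIrr.isCharacter χ.2))) z
    rw [Pi.mul_apply] at h1
    rw [h1, II, Finset.sum_filter]
    refine Finset.sum_congr rfl fun ψ _ => ?_
    split_ifs with h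
    · rfl
    · have : classInner (b * (χ : G → ℂ)) ψ = 0 := by
        by_contra h0
        exact h (ov_mul hN hθ χ.2 ψ.2 hb hbN hχ h0)
      rw [this, zero_mul]
  have e2 : β x * KK N θ x y = ∑ χ ∈ II N θ,
      ∑ ψ ∈ II N θ,
        (ψ : G → ℂ) x * (classInner (β * (χ : G → ℂ)) ψ * conj ((χ : G → ℂ) y)) := by
    rw [KK, Finset.mul_sum]
    refine Finset.sum_congr rfl fun χ hχ => ?_
    rw [← mul_assoc, e1 β hβ hβN χ (mem_II.mp hχ) x, Finset.sum_mul]
    refine Finset.sum_congr rfl fun ψ _ => ?_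
    ring
  rw [e2, Finset.sum_comm, KK, Finset.mul_sum]
  refine Finset.sum_congr rfl fun ψ hψ => ?_
  rw [← Finset.mul_sum]
  have e3 := e1 (fun g => conj (β g)) hβc (fun n hn => by
    show conj (β n) = conj (β 1)
    rw [hβN n hn]) ψ (mem_II.mp hψ) y
  have e4 : β y * conj ((ψ : G → ℂ) y) = ∑ χ ∈ II N θ,
      classInner (β * (χ : G → ℂ)) ψ * conj ((χ : G → ℂ) y) := by
    have h1 := congrArg (starRingEnd ℂ) e3
    rw [map_mul, Complex.conj_conj, map_sum] at h1
    rw [h1]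
    refine Finset.sum_congr rfl fun χ _ => ?_
    rw [map_mul, ci_conj_symm]
    congr 1
    simp only [classInner, Pi.mul_apply, map_mul, Complex.conj_conj]
    congr 1
    refine Finset.sum_congr rfl fun g _ => ?_
    ring
  rw [← e4]
  ring

include hN in
theorem KK_zero [Fintype (IrrCharacter G)] {θ : N → ℂ} (hθ : IsIrrCharacter N θ) {x y : G}
    (hxy : ¬ IsConj (QuotientGroup.mk x : G ⧸ N) (QuotientGroup.mk y)) : KK N θ x y = 0 := by
  classical
  have : Fintype (G ⧸ N) := Fintype.ofFinite _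
  have : Fintype (IrrCharacter (G ⧸ N)) := Fintype.ofFinite _
  let f : G ⧸ N → ℂ := fun z => if IsConj (QuotientGroup.mk x : G ⧸ N) z then 1 else 0
  have hf : IsClassFunction (G ⧸ N) f := by
    intro a b
    show (if IsConj _ _ then (1 : ℂ) else 0) = if IsConj _ _ then 1 else 0
    congr 1
    apply propext
    have h1 : IsConj a (b * a * b⁻¹) := isConj_iff.mpr ⟨b, rfl⟩
    exact ⟨fun h => h.trans h1.symm, fun h => h.trans h1⟩
  have h1 : ∀ β : IrrCharacter (G ⧸ N), ((β : G ⧸ N → ℂ) (QuotientGroup.mk x)) * KK N θ x y =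
      (β : G ⧸ N → ℂ) (QuotientGroup.mk y) * KK N θ x y := by
    intro β
    have h2 : IsCharacter G (fun g : G => (β : G ⧸ N → ℂ) (QuotientGroup.mk g)) := IsChar.inflate (IsIrr.isCharacter β.2)
    exact KK_mul hN hθ h2 (fun n hn => congrArg (β : G ⧸ N → ℂ) ((QuotientGroup.eq_one_iff n).mpr hn)) x y
  have h3 : f (QuotientGroup.mk x) * KK N θ x y = f (QuotientGroup.mk y) * KK N θ x y := by
    rw [expand_apply f hf, expand_apply f hf, Finset.sum_mul, Finset.sum_mul]
    refine Finset.sum_congr rfl fun β _ => ?_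
    rw [mul_assoc, h1, mul_assoc]
  have h4 : f (QuotientGroup.mk x) = 1 := if_pos (IsConj.refl _)
  have h5 : f (QuotientGroup.mk y) = 0 := if_neg hxy
  rw [h4, h5, one_mul, zero_mul] at h3
  exact h3

omit [Fintype G] in
theorem real_odd {X : Type*} [Group X] [Finite X] (hX : Odd (Nat.card X)) {a : X} (h : IsConj a⁻¹ a) : a = 1 := by
  obtain ⟨b, hb⟩ := isConj_iff.mp h
  have h1 : b * a * b⁻¹ = a⁻¹ := by
    have : (b * a⁻¹ * b⁻¹)⁻¹ = a⁻¹ := by rw [hb]
    rw [← this]; group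
  have h2 : Commute (b ^ 2) a := by
    show b ^ 2 * a = a * b ^ 2
    have : b ^ 2 * a * (b ^ 2)⁻¹ = a := by
      have e : b ^ 2 * a * (b ^ 2)⁻¹ = b * (b * a * b⁻¹) * b⁻¹ := by rw [pow_two]; group
      rw [e, h1, hb]
    exact (mul_inv_eq_iff_eq_mul.mp this)
  obtain ⟨m, hm⟩ : ∃ m : ℕ, (b ^ 2) ^ m = b := by
    have h3 : (2 : ℕ).Coprime (orderOf b) := by
      rw [Nat.coprime_two_left]
      exact hX.of_dvd_nat (orderOf_dvd_natCard b)
    exact exists_pow_eq_self_of_coprime h3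
  have h4 : Commute b a := by
    rw [← hm]; exact h2.pow_left m
  have h5 : a = a⁻¹ := by
    rw [← h1, h4.eq, mul_inv_cancel_right]
  have h6 : a ^ 2 = 1 := by
    rw [pow_two]; nth_rewrite 2 [h5]; exact mul_inv_cancel a
  have h7 : orderOf a ∣ 2 := orderOf_dvd_of_pow_eq_one h6
  have h8 : Odd (orderOf a) := hX.of_dvd_nat (orderOf_dvd_natCard a)
  rcases (Nat.dvd_prime Nat.prime_two).mp h7 with h | h
  · exact orderOf_eq_one_iff.mp h
  · rw [h] at h8; exact absurd h8 (by decide)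

include hN in
theorem sum_II_norm [Fintype (IrrCharacter G)] {θ : N → ℂ} (hθ : IsIrrCharacter N θ) :
    ∑ χ ∈ II N θ, classInner (fun n : N => (χ : G → ℂ) n) (fun n : N => (χ : G → ℂ) n) = (N.index : ℂ) := by
  classical
  have h1 : ∀ χ ∈ II N θ, classInner (fun n : N => (χ : G → ℂ) n) (fun n : N => (χ : G → ℂ) n) =
      ((orb hN θ).card : ℂ) * (classInner (indFun N θ) χ * conj (classInner (indFun N θ) χ)) := by
    intro χ hχ
    have h2 := clifford hN χ.2 hθ (mem_II.mp hχ)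
    have h3 : classInner (indFun N θ) (χ : G → ℂ) = conj (classInner (fun n : N => (χ : G → ℂ) n) θ) := by
      rw [frobenius N θ _ (IsIrr.isClass χ.2), ci_conj_symm]
    have h4 : classInner (fun n : N => (χ : G → ℂ) n) (fun n : N => (χ : G → ℂ) n) =
        classInner (fun n : N => (χ : G → ℂ) n) θ * classInner (∑ ψ ∈ orb hN θ, ψ) (fun n : N => (χ : G → ℂ) n) := by
      nth_rewrite 1 [h2]
      rw [ci_smul_left]
    rw [h4, ci_sum_left]
    have h5 : ∀ ψ ∈ orb hN θ, classInner ψ (fun n : N => (χ : G → ℂ) n) = conj (classInner (fun n : N => (χ : G → ℂ) n) θ) := by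
      intro ψ hψ
      obtain ⟨g, rfl⟩ := (mem_orb hN θ ψ).mp hψ
      rw [← ci_conj_symm, cj_ci_res hN (IsIrr.isClass χ.2)]
    rw [Finset.sum_congr rfl h5, Finset.sum_const, nsmul_eq_mul, h3, Complex.conj_conj]
    ring
  rw [Finset.sum_congr rfl h1, ← Finset.mul_sum]
  have h6 : ∑ χ ∈ II N θ, classInner (indFun N θ) (χ : G → ℂ) * conj (classInner (indFun N θ) (χ : G → ℂ)) =
      classInner (indFun N θ) (indFun N θ) := by
    rw [ci_eq_sum (indFun N θ) (indFun N θ) (ind_isClass N θ), II, Finset.sum_filter]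
    refine Finset.sum_congr rfl fun χ _ => ?_
    split_ifs with h
    · rfl
    · have h7 : classInner (indFun N θ) (χ : G → ℂ) = 0 := by
        by_contra h0
        exact h ((constituent_ind_iff (IsIrr.isCharacter χ.2)).mp h0)
      rw [h7, zero_mul]
  rw [h6]
  have h8 := ci_ind_self hN hθ
  have h9 := card_orb hN θ
  have h10 := N.card_mul_index
  have h11 : (Nat.card N : ℂ) ≠ 0 := by exact_mod_cast (Nat.card_pos (α := N)).ne'
  apply mul_left_cancel₀ h11
  rw [← mul_assoc, mul_comm (Nat.card N : ℂ), mul_assoc, h8]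
  exact_mod_cast h9.trans h10.symm

omit [Fintype G] [Fintype N] in
theorem mk_pow [Finite G] [N.Normal] (hidx : Odd N.index) {k : ℕ} (hk₂ : ∀ g : G, Odd (orderOf g) → g ^ k = g⁻¹) (g : G) :
    (QuotientGroup.mk (g ^ k) : G ⧸ N) = (QuotientGroup.mk g)⁻¹ := by
  obtain ⟨a, m, hm, hgm⟩ := Nat.exists_eq_two_pow_mul_odd (orderOf_pos g).ne'
  have hcop : (2 ^ a).Coprime m := Nat.Coprime.pow_left _ (Nat.coprime_two_left.mpr hm)
  obtain ⟨c, hc1, hc2⟩ := Nat.chineseRemainder hcop 0 1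
  have hodd : Odd (orderOf (g ^ c)) := by
    have h1 : (g ^ c) ^ m = 1 := by
      rw [← pow_mul]
      apply orderOf_dvd_iff_pow_eq_one.mp
      rw [hgm]
      exact Nat.mul_dvd_mul_right ((Nat.modEq_zero_iff_dvd).mp hc1) _
    exact hm.of_dvd_nat (orderOf_dvd_of_pow_eq_one h1)
  have hq : (QuotientGroup.mk (g ^ c) : G ⧸ N) = QuotientGroup.mk g := by
    have h2 : orderOf (QuotientGroup.mk g : G ⧸ N) ∣ m := by
      have h3 : orderOf (QuotientGroup.mk g : G ⧸ N) ∣ 2 ^ a * m := by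
        rw [← hgm]
        exact orderOf_map_dvd (QuotientGroup.mk' N) g
      have h4 : Odd (orderOf (QuotientGroup.mk g : G ⧸ N)) := by
        have : orderOf (QuotientGroup.mk g : G ⧸ N) ∣ N.index := by
          rw [Subgroup.index]; exact orderOf_dvd_natCard _
        exact hidx.of_dvd_nat this
      exact ((Nat.Coprime.pow_right a (Nat.coprime_two_right.mpr h4)).dvd_mul_left).mp h3
    have h5 : c ≡ 1 [MOD orderOf (QuotientGroup.mk g : G ⧸ N)] := hc2.of_dvd h2
    have h6 := pow_eq_pow_iff_modEq.mpr h5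
    rw [pow_one] at h6
    exact h6
  have h7 : (QuotientGroup.mk (g ^ k) : G ⧸ N) = (QuotientGroup.mk g) ^ k := rfl
  rw [h7, ← hq]
  have h8 : (QuotientGroup.mk (g ^ c) : G ⧸ N) ^ k = QuotientGroup.mk ((g ^ c) ^ k) := rfl
  rw [h8, hk₂ _ hodd]
  rfl

include hN in
theorem res_fixed {θ : N → ℂ} (hθ : IsIrrCharacter N θ) {k : ℕ} (hθk : ∀ n, θ (n ^ k) = θ n) {χ : G → ℂ}
    (hχ : IsIrrCharacter G χ) (h : Ov N θ χ) (n : N) : χ ((n : G) ^ k) = χ n := by
  have h2 := clifford hN hχ hθ h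
  have h3 := congrFun h2 n
  have h4 := congrFun h2 (n ^ k)
  simp only [Pi.smul_apply, Finset.sum_apply] at h3 h4
  rw [Subgroup.coe_pow] at h4
  rw [h3, h4]
  congr 1
  refine Finset.sum_congr rfl fun ψ hψ => ?_
  obtain ⟨g, rfl⟩ := (mem_orb hN θ ψ).mp hψ
  rw [cj_apply, cj_apply, ← hθk ⟨g * n * g⁻¹, _⟩]
  refine congrArg θ (Subtype.ext ?_)
  push_cast
  rw [conj_pow]

open Classical in
include hN in
theorem count [Fintype (IrrCharacter G)] (hidx : Odd N.index) {k : ℕ} (hk : k.Coprime (Nat.card G))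
    (hk₂ : ∀ g : G, Odd (orderOf g) → g ^ k = g⁻¹) {θ : N → ℂ} (hθ : IsIrrCharacter N θ) (hθk : ∀ n, θ (n ^ k) = θ n) :
    ((II N θ).filter (fun χ : IrrCharacter G => ∀ g, (χ : G → ℂ) (g ^ k) = (χ : G → ℂ) g)).card = 1 := by
  have hG : (Nat.card G : ℂ) ≠ 0 := by exact_mod_cast (Nat.card_pos (α := G)).ne'
  have h1 : ∀ χ : IrrCharacter G, (if ∀ g, (χ : G → ℂ) (g ^ k) = (χ : G → ℂ) g then (1 : ℂ) else 0) * (Nat.card G : ℂ) =
      ∑ g : G, (χ : G → ℂ) (g ^ k) * conj ((χ : G → ℂ) g) := by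
    intro χ
    have h2 : IsIrrCharacter G (sg k (χ : G → ℂ)) := isIrr_pow hk.symm χ.2
    have h3 := ci_irr h2 χ.2
    have h4 : (sg k (χ : G → ℂ) = χ) ↔ ∀ g, (χ : G → ℂ) (g ^ k) = (χ : G → ℂ) g := by
      rw [funext_iff]; rfl
    rw [if_congr h4.symm rfl rfl, ← h3, classInner]
    field_simp
    rfl
  have h2 : (((II N θ).filter (fun χ : IrrCharacter G => ∀ g, (χ : G → ℂ) (g ^ k) = (χ : G → ℂ) g)).card : ℂ) * (Nat.card G : ℂ) =
      ∑ g : G, KK N θ (g ^ k) g := by
    rw [Finset.card_filter]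
    push_cast
    rw [Finset.sum_mul, Finset.sum_congr rfl (fun χ _ => h1 χ), Finset.sum_comm]
    rfl
  have h3 : ∑ g : G, KK N θ (g ^ k) g = ∑ n : N, ∑ χ ∈ II N θ, (χ : G → ℂ) n * conj ((χ : G → ℂ) n) := by
    rw [← Finset.sum_subset (Finset.subset_univ (Finset.univ.filter (fun g : G => g ∈ N)))]
    · refine (Finset.sum_subtype (F := ‹Fintype N›) (Finset.univ.filter (fun g : G => g ∈ N)) (by intro x; simp)
        (fun g => KK N θ (g ^ k) g)).trans ?_
      refine Finset.sum_congr rfl fun n _ => ?_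
      rw [KK]
      refine Finset.sum_congr rfl fun χ hχ => ?_
      have := res_fixed hN hθ hθk χ.2 (mem_II.mp hχ) n
      rw [this]
    · intro g _ hg
      apply KK_zero hN hθ
      intro hcj
      rw [mk_pow hidx hk₂] at hcj
      have hodd : Odd (Nat.card (G ⧸ N)) := hidx
      have := real_odd hodd hcj
      apply hg
      simp only [Finset.mem_filter, Finset.mem_univ, true_and]
      exact (QuotientGroup.eq_one_iff g).mp this
  rw [h3, Finset.sum_comm] at h2
  have h4 : ∑ χ ∈ II N θ, ∑ n : N, (χ : G → ℂ) n * conj ((χ : G → ℂ) n) =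
      (Nat.card N : ℂ) * ∑ χ ∈ II N θ, classInner (fun n : N => (χ : G → ℂ) n) (fun n : N => (χ : G → ℂ) n) := by
    rw [Finset.mul_sum]
    refine Finset.sum_congr rfl fun χ _ => ?_
    rw [classInner]
    have h11 : (Nat.card N : ℂ) ≠ 0 := by exact_mod_cast (Nat.card_pos (α := N)).ne'
    field_simp
  rw [h4, sum_II_norm hN hθ] at h2
  have h5 : (Nat.card N : ℂ) * (N.index : ℂ) = Nat.card G := by exact_mod_cast N.card_mul_index
  rw [h5] at h2
  have h6 := mul_right_cancel₀ hG (h2.trans (one_mul _).symm)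
  exact_mod_cast h6

include hN in
/-- exactly one fixed character above a fixed one -/
theorem exists_unique (hidx : Odd N.index) {k : ℕ} (hk : k.Coprime (Nat.card G))
    (hk₂ : ∀ g : G, Odd (orderOf g) → g ^ k = g⁻¹) {θ : N → ℂ} (hθ : IsIrrCharacter N θ) (hθk : ∀ n, θ (n ^ k) = θ n) :
    ∃ χ : G → ℂ, (IsIrrCharacter G χ ∧ Ov N θ χ ∧ ∀ g, χ (g ^ k) = χ g) ∧
      ∀ χ' : G → ℂ, IsIrrCharacter G χ' → Ov N θ χ' → (∀ g, χ' (g ^ k) = χ' g) → χ' = χ := by
  classical
  have : Fintype (IrrCharacter G) := Fintype.ofFinite _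
  obtain ⟨χ, hχ⟩ := Finset.card_eq_one.mp (count hN hidx hk hk₂ hθ hθk)
  have h1 : ∀ ψ : IrrCharacter G, (Ov N θ (ψ : G → ℂ) ∧ ∀ g, (ψ : G → ℂ) (g ^ k) = (ψ : G → ℂ) g) ↔ ψ = χ := by
    intro ψ
    have h2 := Finset.ext_iff.mp hχ ψ
    rw [Finset.mem_filter, mem_II, Finset.mem_singleton] at h2
    exact h2
  have h2 := (h1 χ).mpr rfl
  refine ⟨χ, ⟨χ.2, h2.1, h2.2⟩, ?_⟩
  intro χ' hχ' ho hk'
  exact congrArg Subtype.val ((h1 ⟨χ', hχ'⟩).mp ⟨ho, hk'⟩)

include hN in
theorem cyc (hcyc : IsCyclic (G ⧸ N)) {θ : N → ℂ} (hθ : IsIrrCharacter N θ) (hinv : ∀ g, cj hN g θ = θ) {χ : G → ℂ}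
    (hχ : IsIrrCharacter G χ) (ho : Ov N θ χ) (n : N) : χ n = θ n := by
  have := hN
  obtain ⟨ψ, hψ, hψr⟩ := CycExt.exists_extension N hcyc θ hθ (fun g n => congrFun (hinv g) n)
  have h1 : (fun n : N => ψ n) = θ := funext hψr
  obtain ⟨f, hf1, hf2⟩ := trans_lin hN (by
    intro a b
    have hc : IsMulCommutative (G ⧸ N) := inferInstance
    rw [← QuotientGroup.eq_one_iff]
    have h2 : ((a * b * a⁻¹ * b⁻¹ : G) : G ⧸ N) = (a : G ⧸ N) * b * (a : G ⧸ N)⁻¹ * (b : G ⧸ N)⁻¹ := rfl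
    rw [h2, hc.is_comm.comm (a : G ⧸ N) b, mul_inv_cancel_right, mul_inv_cancel]) hψ hχ (by rw [h1]; exact ho)
  rw [hf2, hf1 n n.2, hψr]
  simp

end A

theorem solv (m : ℕ) : ∀ (G : Type u) [Group G] [Fintype G] (N : Subgroup G) [hN : N.Normal] [Fintype N], Odd N.index →
    ∀ k : ℕ, k.Coprime (Nat.card G) → (∀ g : G, Odd (orderOf g) → g ^ k = g⁻¹) → Group.IsSolvable (G ⧸ N) →
    ∀ θ : N → ℂ, IsIrrCharacter N θ → (∀ n, θ (n ^ k) = θ n) → (∀ g, cj hN g θ = θ) → N.index ≤ m →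
    ∃ χ : G → ℂ, IsIrrCharacter G χ ∧ (∀ g, χ (g ^ k) = χ g) ∧ ∀ n : N, χ n = θ n := by
  induction m with
  | zero =>
    intro G _ _ N _ _ _ k _ _ _ θ _ _ _ h
    exact absurd (Nat.le_zero.mp h) Subgroup.FiniteIndex.index_ne_zero
  | succ m ih =>
    intro G _ _ N hN _ hidx k hk hk₂ hs θ hθ hθk hinv hm
    by_cases htop : N = ⊤
    · have hcyc : IsCyclic (G ⧸ N) := by
        have : Subsingleton (G ⧸ N) := by
          rw [htop]; exact QuotientGroup.subsingleton_quotient_top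
        infer_instance
      obtain ⟨χ, ⟨h1, h2, h3⟩, -⟩ := exists_unique hN hidx hk hk₂ hθ hθk
      exact ⟨χ, h1, h3, cyc hN hcyc hθ hinv h1 h2⟩
    · obtain ⟨M, hM, hp, hNM⟩ := Cfsg.Agent.H1.Basic.exists_normal_index_prime_ge N htop hs
      have : Fintype M := Fintype.ofFinite _
      have : Fintype (N.subgroupOf M) := Fintype.ofFinite _
      have hcycM : IsCyclic (G ⧸ M) := by
        have := Fact.mk hp
        exact isCyclic_of_prime_card (p := M.index) rfl
      let e := Subgroup.subgroupOfEquivOfLe hNM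
      have hr : N.relIndex M * M.index = N.index := Subgroup.relIndex_mul_index hNM
      have hoM : Odd M.index := hidx.of_dvd_nat (Dvd.intro_left _ hr)
      have hoN : Odd (N.subgroupOf M).index := hidx.of_dvd_nat (Dvd.intro _ hr)
      have hkM : k.Coprime (Nat.card M) := Nat.Coprime.coprime_dvd_right (Subgroup.card_subgroup_dvd_card M) hk
      have hk2M : ∀ g : M, Odd (orderOf g) → g ^ k = g⁻¹ := by
        intro g hg
        apply Subtype.ext
        push_cast
        exact hk₂ g (by rwa [Subgroup.orderOf_coe])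
      have hθ' : IsIrrCharacter (N.subgroupOf M) (fun x => θ (e x)) := (isIrr_comp_iff e).mpr hθ
      have hθk' : ∀ n : N.subgroupOf M, θ (e (n ^ k)) = θ (e n) := by
        intro n
        rw [map_pow, hθk]
      have hinv' : ∀ g : M, cj (inferInstance : (N.subgroupOf M).Normal) g (fun x => θ (e x)) = fun x => θ (e x) := by
        intro g
        funext n
        have := congrFun (hinv (g : G)) (e n)
        rw [cj_apply] at this ⊢
        exact this
      obtain ⟨χM, hχM, hχMk, hχMr⟩ := ih M (N.subgroupOf M) hoN k hkM hk2M (by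
          have hinj : Function.Injective (QuotientGroup.map (N.subgroupOf M) N M.subtype le_rfl) := by
            rw [injective_iff_map_eq_one]
            intro x
            induction x using QuotientGroup.induction_on with
            | H z =>
              intro hz
              have hz' : ((z : G) : G ⧸ N) = 1 := hz
              exact (QuotientGroup.eq_one_iff _).mpr (Subgroup.mem_subgroupOf.mpr ((QuotientGroup.eq_one_iff _).mp hz'))
          exact Group.isSolvable_of_isSolvable_injective hinj) (fun x => θ (e x)) hθ' hθk' hinv' (by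
          have h2 : 1 < M.index := hp.one_lt
          have h3 : 0 < N.index := Nat.pos_of_ne_zero Subgroup.FiniteIndex.index_ne_zero
          show N.relIndex M ≤ m
          have h4 : N.relIndex M * 2 ≤ N.index := by
            rw [← hr]; exact Nat.mul_le_mul_left _ h2
          omega)
      have hinvM : ∀ g, cj hM g χM = χM := by
        intro g
        obtain ⟨ψ, -, huniq⟩ := exists_unique (inferInstance : (N.subgroupOf M).Normal) hoN hkM hk2M hθ' hθk'
        have h1 : χM = ψ := huniq χM hχM (by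
          show classInner _ _ ≠ 0
          rw [show (fun n : N.subgroupOf M => χM n) = (fun x => θ (e x)) from funext hχMr, ci_irr_self hθ']
          exact one_ne_zero) hχMk
        rw [h1]
        rw [← h1]
        rw [huniq (cj hM g χM) ((cj_isIrr hM g).mpr hχM) (by
          show classInner _ _ ≠ 0
          rw [show (fun n : N.subgroupOf M => cj hM g χM n) = (fun x => θ (e x)) from funext (by
            intro n
            rw [cj_apply]
            have h5 := hχMr ⟨⟨g * (n : M) * g⁻¹, hM.conj_mem _ (n : M).2 g⟩, Subgroup.mem_subgroupOf.mpr (hN.conj_mem _ (Subgroup.mem_subgroupOf.mp n.2) g)⟩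
            refine h5.trans ?_
            have := congrFun (hinv g) (e n)
            rw [cj_apply] at this
            exact this), ci_irr_self hθ']
          exact one_ne_zero) (by
          intro m
          rw [cj_apply, cj_apply, ← hχMk ⟨g * m * g⁻¹, _⟩]
          refine congrArg χM (Subtype.ext ?_)
          push_cast
          rw [conj_pow])]
        exact h1.symm
      obtain ⟨χ, ⟨h1, h2, h3⟩, -⟩ := exists_unique hM hoM hk hk₂ hχM hχMk
      have h4 := cyc hM hcycM hχM hinvM h1 h2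
      refine ⟨χ, h1, h3, ?_⟩
      intro n
      have h5 := h4 ⟨n, hNM n.2⟩
      have h6 := hχMr ⟨⟨n, hNM n.2⟩, Subgroup.mem_subgroupOf.mpr n.2⟩
      exact h5.trans h6

section Gen

variable {G : Type u} [Group G] [Fintype G] {N : Subgroup G} [hN : N.Normal] [Fintype N]

/-- the fixed extension to an intermediate subgroup -/
def Fx (N : Subgroup G) (θ : N → ℂ) (k : ℕ) (H : Subgroup G) (χ : H → ℂ) : Prop :=
  IsIrrCharacter H χ ∧ (∀ h, χ (h ^ k) = χ h) ∧ ∀ (n : G) (hn : n ∈ N) (h : n ∈ H), χ ⟨n, h⟩ = θ ⟨n, hn⟩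

variable (hidx : Odd N.index) {k : ℕ} (hk : k.Coprime (Nat.card G))
    (hk₂ : ∀ g : G, Odd (orderOf g) → g ^ k = g⁻¹) {θ : N → ℂ} (hθ : IsIrrCharacter N θ) (hθk : ∀ n, θ (n ^ k) = θ n)

include hidx hk hk₂ hθ hθk in
theorem Fx.unique {H : Subgroup G} (hNH : N ≤ H) {χ χ' : H → ℂ} (h : Fx N θ k H χ) (h' : Fx N θ k H χ') : χ = χ' := by
  have : Fintype H := Fintype.ofFinite _
  have : Fintype (N.subgroupOf H) := Fintype.ofFinite _
  let e := Subgroup.subgroupOfEquivOfLe hNH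
  have hr : N.relIndex H * H.index = N.index := Subgroup.relIndex_mul_index hNH
  have hoN : Odd (N.subgroupOf H).index := hidx.of_dvd_nat (Dvd.intro _ hr)
  have hkM : k.Coprime (Nat.card H) := Nat.Coprime.coprime_dvd_right (Subgroup.card_subgroup_dvd_card H) hk
  have hk2M : ∀ g : H, Odd (orderOf g) → g ^ k = g⁻¹ := by
    intro g hg
    apply Subtype.ext
    push_cast
    exact hk₂ g (by rwa [Subgroup.orderOf_coe])
  have hθ' : IsIrrCharacter (N.subgroupOf H) (fun x => θ (e x)) := (isIrr_comp_iff e).mpr hθ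
  have hθk' : ∀ n : N.subgroupOf H, θ (e (n ^ k)) = θ (e n) := by
    intro n
    rw [map_pow, hθk]
  obtain ⟨ψ, -, huniq⟩ := exists_unique (inferInstance : (N.subgroupOf H).Normal) hoN hkM hk2M hθ' hθk'
  have key : ∀ φ : H → ℂ, Fx N θ k H φ → φ = ψ := by
    intro φ hφ
    refine huniq φ hφ.1 ?_ hφ.2.1
    show classInner _ _ ≠ 0
    rw [show (fun n : N.subgroupOf H => φ n) = (fun x => θ (e x)) from funext (fun x => hφ.2.2 _ (Subgroup.mem_subgroupOf.mp x.2) x.1.2),
      ci_irr_self hθ']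
    exact one_ne_zero
  rw [key χ h, key χ' h']

include hidx hk hk₂ hθ hθk in
theorem Fx.exists (hinv : ∀ g, cj hN g θ = θ) {H : Subgroup G} (hNH : N ≤ H) (hs : Group.IsSolvable (H ⧸ N.subgroupOf H)) :
    ∃ χ : H → ℂ, Fx N θ k H χ := by
  have : Fintype H := Fintype.ofFinite _
  have : Fintype (N.subgroupOf H) := Fintype.ofFinite _
  let e := Subgroup.subgroupOfEquivOfLe hNH
  have hr : N.relIndex H * H.index = N.index := Subgroup.relIndex_mul_index hNH
  have hoN : Odd (N.subgroupOf H).index := hidx.of_dvd_nat (Dvd.intro _ hr)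
  have hkM : k.Coprime (Nat.card H) := Nat.Coprime.coprime_dvd_right (Subgroup.card_subgroup_dvd_card H) hk
  have hk2M : ∀ g : H, Odd (orderOf g) → g ^ k = g⁻¹ := by
    intro g hg
    apply Subtype.ext
    push_cast
    exact hk₂ g (by rwa [Subgroup.orderOf_coe])
  have hθ' : IsIrrCharacter (N.subgroupOf H) (fun x => θ (e x)) := (isIrr_comp_iff e).mpr hθ
  have hθk' : ∀ n : N.subgroupOf H, θ (e (n ^ k)) = θ (e n) := by
    intro n
    rw [map_pow, hθk]
  obtain ⟨χ, h1, h2, h3⟩ := solv _ H (N.subgroupOf H) hoN k hkM hk2M hs (fun x => θ (e x)) hθ' hθk' (by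
    intro g
    funext n
    have := congrFun (hinv (g : G)) (e n)
    rw [cj_apply] at this ⊢
    exact this) le_rfl
  exact ⟨χ, h1, h2, fun n hn h => h3 ⟨⟨n, h⟩, Subgroup.mem_subgroupOf.mpr hn⟩⟩

omit [Fintype G] hN [Fintype N] in
include hθ in
theorem Fx.res [Finite G] {H K : Subgroup G} (hNK : N ≤ K) (hKH : K ≤ H) {χ : H → ℂ} (h : Fx N θ k H χ) :
    Fx N θ k K (fun x => χ ⟨x, hKH x.2⟩) := by
  have : Fintype K := Fintype.ofFinite _
  have : Fintype (N.subgroupOf K) := Fintype.ofFinite _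
  let e := Subgroup.subgroupOfEquivOfLe hNK
  refine ⟨?_, ?_, ?_⟩
  · refine Triple.irr_of_res (B := N.subgroupOf K) (IsChar.comp (IsIrr.isCharacter h.1) (Subgroup.inclusion hKH)) ?_
    have h1 : (fun x : N.subgroupOf K => χ ⟨((x : K) : G), hKH x.1.2⟩) = fun x => θ (e x) :=
      funext fun x => h.2.2 _ (Subgroup.mem_subgroupOf.mp x.2) (hKH x.1.2)
    exact h1 ▸ (isIrr_comp_iff e).mpr hθ
  · intro x
    exact h.2.1 ⟨x, hKH x.2⟩
  · intro n hn hK
    exact h.2.2 n hn (hKH hK)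

theorem solv_sup {E : Subgroup G} (hE : Group.IsSolvable E) : Group.IsSolvable ((N ⊔ E : Subgroup G) ⧸ N.subgroupOf (N ⊔ E)) := by
  let f : E →* (N ⊔ E : Subgroup G) ⧸ N.subgroupOf (N ⊔ E) :=
    (QuotientGroup.mk' _).comp (Subgroup.inclusion (le_sup_right : E ≤ N ⊔ E))
  have hf : Function.Surjective f := by
    intro y
    obtain ⟨⟨y, hy⟩, rfl⟩ := QuotientGroup.mk_surjective y
    obtain ⟨n, hn, b, hb, rfl⟩ := Subgroup.mem_sup_of_normal_left.mp hy
    refine ⟨⟨b, hb⟩, ?_⟩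
    refine (QuotientGroup.eq (s := N.subgroupOf (N ⊔ E))).mpr ?_
    rw [Subgroup.mem_subgroupOf]
    show b⁻¹ * (n * b) ∈ N
    have := hN.conj_mem n hn b⁻¹
    rw [inv_inv, mul_assoc] at this
    exact this
  exact Group.isSolvable_of_surjective hf

include hidx hk hk₂ hθ hθk in
theorem extend (hinv : ∀ g, cj hN g θ = θ) : ∃ χ : G → ℂ, IsIrrCharacter G χ ∧ (∀ g, χ (g ^ k) = χ g) ∧ ∀ n : N, χ n = θ n := by
  classical
  have hex : ∀ g : G, ∃ χ : (N ⊔ Subgroup.zpowers g : Subgroup G) → ℂ, Fx N θ k (N ⊔ Subgroup.zpowers g) χ := fun g =>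
    Fx.exists hidx hk hk₂ hθ hθk hinv le_sup_left (solv_sup inferInstance)
  choose F hF using hex
  have hgm : ∀ g : G, g ∈ N ⊔ Subgroup.zpowers g := fun g => le_sup_right (a := N) (Subgroup.mem_zpowers g)
  obtain ⟨X, hX⟩ : ∃ X : G → ℂ, ∀ g, X g = F g ⟨g, hgm g⟩ := ⟨fun g => F g ⟨g, hgm g⟩, fun g => rfl⟩
  have key : ∀ (H : Subgroup G) (χ : H → ℂ), N ≤ H → Fx N θ k H χ → ∀ h : H, X h = χ h := by
    intro H χ hNH hχ h
    have hle : N ⊔ Subgroup.zpowers (h : G) ≤ H := sup_le hNH (by rw [Subgroup.zpowers_le]; exact h.2)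
    have h1 := Fx.unique hidx hk hk₂ hθ hθk le_sup_left (hF h) (Fx.res hθ le_sup_left hle hχ)
    rw [hX, h1]
  have hXN : ∀ n : N, X n = θ n := by
    intro n
    rw [hX]
    exact (hF n).2.2 n n.2 _
  have hXk : ∀ g, X (g ^ k) = X g := by
    intro g
    have h1 := key _ (F g) le_sup_left (hF g) (⟨g, hgm g⟩ ^ k)
    rw [(hF g).2.1] at h1
    rw [hX g, ← h1]
    rfl
  have hcls : IsClassFunction G X := by
    intro g b
    have hnc : ∀ x, x ∈ N ⊔ Subgroup.zpowers g → b * x * b⁻¹ ∈ N ⊔ Subgroup.zpowers (b * g * b⁻¹) := by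
      intro x hx
      obtain ⟨n, hn, y, hy, rfl⟩ := Subgroup.mem_sup_of_normal_left.mp hx
      obtain ⟨i, rfl⟩ := Subgroup.mem_zpowers_iff.mp hy
      have h1 : b * (n * g ^ i) * b⁻¹ = (b * n * b⁻¹) * (b * g * b⁻¹) ^ i := by
        rw [conj_zpow]; group
      rw [h1]
      exact Subgroup.mul_mem _ (le_sup_left (a := N) (hN.conj_mem n hn b)) (Subgroup.zpow_mem _ (hgm _) i)
    have h1 : Fx N θ k (N ⊔ Subgroup.zpowers g) (fun x => F (b * g * b⁻¹) ⟨b * x * b⁻¹, hnc x x.2⟩) := by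
      refine ⟨?_, ?_, ?_⟩
      · let f : (N ⊔ Subgroup.zpowers g : Subgroup G) →* (N ⊔ Subgroup.zpowers (b * g * b⁻¹) : Subgroup G) :=
          MonoidHom.mk' (fun x => ⟨b * x * b⁻¹, hnc x x.2⟩) (by
            intro x y
            apply Subtype.ext
            show b * (x * y : G) * b⁻¹ = (b * x * b⁻¹) * (b * y * b⁻¹)
            group)
        refine IsIrr.comp (hF (b * g * b⁻¹)).1 f ?_
        rintro ⟨y, hy⟩
        have hy' : b⁻¹ * y * b ∈ N ⊔ Subgroup.zpowers g := by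
          obtain ⟨n, hn, z, hz, rfl⟩ := Subgroup.mem_sup_of_normal_left.mp hy
          obtain ⟨i, rfl⟩ := Subgroup.mem_zpowers_iff.mp hz
          have h1 : b⁻¹ * (n * (b * g * b⁻¹) ^ i) * b = (b⁻¹ * n * b⁻¹⁻¹) * g ^ i := by
            rw [conj_zpow]; group
          rw [h1]
          exact Subgroup.mul_mem _ (le_sup_left (a := N) (hN.conj_mem n hn b⁻¹)) (Subgroup.zpow_mem _ (hgm _) i)
        refine ⟨⟨b⁻¹ * y * b, hy'⟩, ?_⟩
        apply Subtype.ext
        show b * (b⁻¹ * y * b) * b⁻¹ = y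
        group
      · intro x
        refine Eq.trans ?_ ((hF (b * g * b⁻¹)).2.1 ⟨b * x * b⁻¹, hnc x x.2⟩)
        refine congrArg (F (b * g * b⁻¹)) (Subtype.ext ?_)
        push_cast
        rw [conj_pow]
      · intro n hn h
        refine ((hF (b * g * b⁻¹)).2.2 (b * n * b⁻¹) (hN.conj_mem n hn b) (hnc n h)).trans ?_
        have := congrFun (hinv b) ⟨n, hn⟩
        rw [cj_apply] at this
        exact this
    have h2 := key _ _ le_sup_left h1 ⟨g, hgm g⟩
    rw [hX (b * g * b⁻¹)]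
    exact h2.symm
  have hgen : IsGeneralizedCharacter G X := by
    refine H25.Brauer.isGen_of_elementary hcls ?_
    intro E p hp hE
    have hnil : Group.IsNilpotent E := NilpSplit.elementary_nilpotent hp hE
    have hsE : Group.IsSolvable E := inferInstance
    obtain ⟨χ, hχ⟩ := Fx.exists hidx hk hk₂ hθ hθk hinv (H := N ⊔ E) le_sup_left (solv_sup hsE)
    have h1 : (fun e : E => X e) = fun e : E => χ ⟨e, le_sup_right (a := N) e.2⟩ := by
      funext e
      exact key _ χ le_sup_left hχ ⟨e, le_sup_right (a := N) e.2⟩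
    rw [h1]
    exact IsGen.of_char (IsChar.comp (IsIrr.isCharacter hχ.1) (Subgroup.inclusion (le_sup_right : E ≤ N ⊔ E)))
  have hnorm : classInner X X = 1 := by
    have h1 : classInner X X = classInner (X * fun g => conj (X g)) (fun _ => 1) := by
      simp [classInner]
    rw [h1, ci_eq_avg (N := N)]
    have h2 : avg N (X * fun g => conj (X g)) = fun _ => 1 := by
      funext g
      have : Fintype (N ⊔ Subgroup.zpowers g : Subgroup G) := Fintype.ofFinite _
      have : Fintype (N.subgroupOf (N ⊔ Subgroup.zpowers g)) := Fintype.ofFinite _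
      let e := Subgroup.subgroupOfEquivOfLe (le_sup_left : N ≤ N ⊔ Subgroup.zpowers g)
      have h3 := GlCyc.coset_self (G := N.subgroupOf (N ⊔ Subgroup.zpowers g)) (hF g).1 (by
        have h1 : (fun x : N.subgroupOf (N ⊔ Subgroup.zpowers g) => F g x) = fun x => θ (e x) :=
          funext fun x => (hF g).2.2 _ (Subgroup.mem_subgroupOf.mp x.2) x.1.2
        rw [h1]
        exact (isIrr_comp_iff e).mpr hθ) ⟨g, hgm g⟩
      rw [avg, ← Equiv.sum_comp e.toEquiv]
      have h4 : Nat.card (N.subgroupOf (N ⊔ Subgroup.zpowers g)) = Nat.card N := Nat.card_congr e.toEquiv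
      rw [h4] at h3
      have h5 : (Nat.card N : ℂ) ≠ 0 := by exact_mod_cast (Nat.card_pos (α := N)).ne'
      rw [inv_mul_eq_iff_eq_mul₀ h5, mul_one, ← h3]
      refine Finset.sum_congr rfl fun n _ => ?_
      have h6 := key _ (F g) le_sup_left (hF g) ((n : (N ⊔ Subgroup.zpowers g : Subgroup G)) * ⟨g, hgm g⟩)
      rw [Pi.mul_apply, ← h6]
      rfl
    rw [h2]
    exact ci_irr_self isIrr_one
  rcases isGen_norm_one hgen hnorm with h | h
  · exact ⟨X, h, hXk, hXN⟩
  · exfalso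
    obtain ⟨a, ha⟩ := IsChar.one_eq_nat (IsIrr.isCharacter h)
    obtain ⟨b, hb⟩ := IsChar.one_eq_nat (IsIrr.isCharacter hθ)
    have h1 : X 1 = θ 1 := hXN 1
    rw [Pi.neg_apply, h1, hb] at ha
    have h2 : ((a + b : ℕ) : ℂ) = 0 := by push_cast; rw [← ha]; ring
    have h3 : a + b = 0 := by exact_mod_cast h2
    have h4 : b = 0 := by omega
    rw [h4, Nat.cast_zero] at hb
    exact IsIrr.one_ne_zero hθ hb

end Gen

end Cfsg.Agent.H3.OddFix
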