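import Cfsg.Statements.S4519
import Cfsg.Agent.H3_OddFix
import Cfsg.Agent.H3_Clifford
import Cfsg.Agent.H3_CharIrr

set_option autoImplicit false
open Cfsg

namespace Cfsg.Agent.S4519

open Cfsg.Agent.H3.OddFix Cfsg.Agent.H3.Clifford Cfsg.Agent.H3.CharIrr

/-- Let N be a normal subgroup of odd index in the finite group G, and let k be coprime to the order of G with k ^ (2 ^ e) ≡ 1 modulo the order of G for some e and g ^ k = g⁻¹ for every element g of odd order (so g ↦ g ^ k induces a field automorphism of 2-power order inverting the roots of unity of odd order). If an irreducible character θ of N satisfies θ (n ^ k) = θ n for all n, then there is exactly one irreducible character χ of G with θ a constituent of its restriction to N and χ (g ^ k) = χ g for all g; moreover, if θ is invariant under conjugation by G, that χ restricts to θ. -/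
theorem result {G : Type*} [Group G] [Fintype G] (N : Subgroup G) [hN : N.Normal] [Fintype N] (hidx : Odd N.index) (k e : ℕ) (hk : Nat.Coprime k (Nat.card G)) (hke : k ^ (2 ^ e) ≡ 1 [MOD Nat.card G]) (hk₂ : ∀ g : G, Odd (orderOf g) → g ^ k = g⁻¹) (θ : Cfsg.IrrCharacter N) (hθ : ∀ n : N, (θ : N → ℂ) (n ^ k) = (θ : N → ℂ) n) : ∃ χ : Cfsg.IrrCharacter G, (Cfsg.classInner (fun n : N => (χ : G → ℂ) n) (θ : N → ℂ) ≠ 0 ∧ (∀ g : G, (χ : G → ℂ) (g ^ k) = (χ : G → ℂ) g) ∧ ((∀ g : G, ∀ n : N, (θ : N → ℂ) ⟨g * n * g⁻¹, hN.conj_mem n n.2 g⟩ = (θ : N → ℂ) n) → ∀ n : N, (χ : G → ℂ) n = (θ : N → ℂ) n)) ∧ ∀ χ' : Cfsg.IrrCharacter G, Cfsg.classInner (fun n : N => (χ' : G → ℂ) n) (θ : N → ℂ) ≠ 0 → (∀ g : G, (χ' : G → ℂ) (g ^ k) = (χ' : G → ℂ) g) → χ' = χ := by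
  obtain ⟨χ, ⟨h1, h2, h3⟩, huniq⟩ := exists_unique hN hidx hk hk₂ θ.2 hθ
  refine ⟨⟨χ, h1⟩, ⟨h2, h3, ?_⟩, ?_⟩
  · intro hinv
    obtain ⟨χ', h4, h5, h6⟩ := extend hidx hk hk₂ θ.2 hθ (fun g => funext fun n => hinv g n)
    have h7 := huniq χ' h4 (by
      show Cfsg.classInner _ _ ≠ 0
      rw [show (fun n : N => χ' n) = (θ : N → ℂ) from funext h6, ci_irr_self θ.2]
      exact one_ne_zero) h5
    intro n
    exact (congrFun h7 (n : G)).symm.trans (h6 n)
  · intro χ' ho hk'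
    exact Subtype.ext (huniq χ' χ'.2 ho hk')

end Cfsg.Agent.S4519
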