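import Mathlib
import Cfsg.Agent.H3_GalOrb
import Cfsg.Agent.H3_GalProd
import Cfsg.Agent.H26_B0
import Cfsg.Agent.H10_BlockCov
import Cfsg.Agent.S4519

/-!
H10_B0Odd: principal 2-blocks and normal subgroups of odd index (Galois fixed characters).
-/

set_option autoImplicit false
set_option linter.style.haveILetI false
set_option linter.unusedSectionVars false

namespace Cfsg.Agent.H10.B0Odd

open Cfsg Cfsg.Agent.H3.CharIrr Cfsg.Agent.H3.CharComplete Cfsg.Agent.H3.CharInd
  Cfsg.Agent.H3.CharBasic Cfsg.Agent.H3.CharInt Cfsg.Agent.H3.Clifford Cfsg.Agent.H3.GalProd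
  Cfsg.Agent.H10.Char Cfsg.Agent.H10.BlockLoc Cfsg.Agent.H10.BlockAlg Cfsg.Agent.H10.BlockIdem
  Cfsg.Agent.H10.BlockInd Cfsg.Agent.H10.BlockNormal Cfsg.Agent.H10.BlockCov
  Cfsg.Agent.H10.BlockOrth Cfsg.Agent.H10.BlockKer Cfsg.Agent.H26.GalConj Cfsg.Agent.H26.B0
open scoped ComplexConjugate

variable {G : Type*} [Group G] [Fintype G] {M : Ideal AlgInt} (N : Subgroup G) [hN : N.Normal] [Fintype N]

/-- the multiplicity -/
noncomputable def mu (χ : IrrCharacter G) (θ : IrrCharacter N) : ℕ :=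
  (ci_char_nat (IsChar.res (IsIrr.isCharacter χ.2) N) (IsIrr.isCharacter θ.2)).choose

theorem mu_spec (χ : IrrCharacter G) (θ : IrrCharacter N) :
    classInner (fun n : N => (χ : G → ℂ) n) (θ : N → ℂ) = mu N χ θ :=
  (ci_char_nat (IsChar.res (IsIrr.isCharacter χ.2) N) (IsIrr.isCharacter θ.2)).choose_spec

open Classical in
theorem T_formula [Fintype (IrrCharacter G)] (B : Set (IrrCharacter G)) (θ : IrrCharacter N) :
    ∑ χ : IrrCharacter G, (if χ ∈ B then (χ : G → ℂ) 1 * (mu N χ θ : ℂ) else 0) =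
      (N.index : ℂ) * ((θ : N → ℂ) 1 * om θ (truncZ N (eB B))) := by
  have h1 : (θ : N → ℂ) 1 ≠ 0 := irr_one_ne θ.2
  have hG : (Nat.card G : ℂ) = (Nat.card N : ℂ) * (N.index : ℂ) := by
    rw [← Subgroup.card_mul_index N]; push_cast; rfl
  have hN0 : (Nat.card N : ℂ) ≠ 0 := Nat.cast_ne_zero.2 Nat.card_pos.ne'
  have hI0 : (N.index : ℂ) ≠ 0 := Nat.cast_ne_zero.2 Subgroup.index_ne_zero_of_finite
  rw [om_apply, mul_div_cancel₀ _ h1, lin_apply]
  have h2 : ∀ n : N, (truncZ N (eB B) : MonoidAlgebra ℂ N).coeff n * (θ : N → ℂ) n =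
      ∑ χ : IrrCharacter G, (if χ ∈ B then (Nat.card G : ℂ)⁻¹ * ((χ : G → ℂ) 1 * (conj ((χ : G → ℂ) n) * (θ : N → ℂ) n)) else 0) := by
    intro n
    rw [truncZ_coeff, eB_coeff, blockCoeff_eq_sum, mul_assoc, Finset.sum_mul, Finset.mul_sum]
    refine Finset.sum_congr rfl fun χ _ => ?_
    by_cases h : χ ∈ B
    · rw [if_pos h, if_pos h]; ring
    · rw [if_neg h, if_neg h, zero_mul, mul_zero]
  rw [Finset.sum_congr rfl (fun n _ => h2 n), Finset.sum_comm, Finset.mul_sum]
  refine Finset.sum_congr rfl fun χ _ => ?_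
  by_cases h : χ ∈ B
  · simp only [if_pos h]
    rw [← Finset.mul_sum, ← Finset.mul_sum]
    have h3 : ∑ n : N, conj ((χ : G → ℂ) n) * (θ : N → ℂ) n = (Nat.card N : ℂ) * (mu N χ θ : ℂ) := by
      have h4 : classInner (θ : N → ℂ) (fun n : N => (χ : G → ℂ) n) = (mu N χ θ : ℂ) := by
        rw [← ci_conj_symm, mu_spec]; simp
      rw [← h4, classInner, ← mul_assoc, mul_inv_cancel₀ hN0, one_mul]
      exact Finset.sum_congr rfl fun n _ => mul_comm _ _
    rw [h3, hG]
    field_simp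
  · simp only [if_neg h, Finset.sum_const_zero, mul_zero]

/-- degree quotient -/
theorem deg_mu (χ : IrrCharacter G) (θ : IrrCharacter N) :
    (χ : G → ℂ) 1 * (mu N χ θ : ℂ) = ((mu N χ θ : ℂ)) ^ 2 * (inertia hN (θ : N → ℂ)).index * (θ : N → ℂ) 1 := by
  by_cases h : mu N χ θ = 0
  · rw [h]; simp
  · have h1 : classInner (fun n : N => (χ : G → ℂ) n) (θ : N → ℂ) ≠ 0 := by
      rw [mu_spec]; exact_mod_cast h
    have h2 := clifford_degree hN χ.2 θ.2 h1
    rw [mu_spec] at h2
    rw [h2]; ring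

open Classical in
theorem om_trunc [Fintype (IrrCharacter G)] (B : Set (IrrCharacter G)) (θ : IrrCharacter N) :
    (N.index : ℂ) * om θ (truncZ N (eB B)) =
      (((inertia hN (θ : N → ℂ)).index * ∑ χ : IrrCharacter G, (if χ ∈ B then (mu N χ θ) ^ 2 else 0) : ℕ) : ℂ) := by
  have h1 : (θ : N → ℂ) 1 ≠ 0 := irr_one_ne θ.2
  have h2 := T_formula N B θ
  have h3 : ∑ χ : IrrCharacter G, (if χ ∈ B then (χ : G → ℂ) 1 * (mu N χ θ : ℂ) else 0) =
      (θ : N → ℂ) 1 * (((inertia hN (θ : N → ℂ)).index * ∑ χ : IrrCharacter G, (if χ ∈ B then (mu N χ θ) ^ 2 else 0) : ℕ) : ℂ) := by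
    push_cast
    rw [Finset.mul_sum, Finset.mul_sum]
    refine Finset.sum_congr rfl fun χ _ => ?_
    by_cases h : χ ∈ B
    · rw [if_pos h, if_pos h, deg_mu]; ring
    · rw [if_neg h, if_neg h, mul_zero, mul_zero]
  rw [h3] at h2
  have h4 : (θ : N → ℂ) 1 * ((N.index : ℂ) * om θ (truncZ N (eB B))) = (θ : N → ℂ) 1 *
      (((inertia hN (θ : N → ℂ)).index * ∑ χ : IrrCharacter G, (if χ ∈ B then (mu N χ θ) ^ 2 else 0) : ℕ) : ℂ) := by
    rw [h2]; ring
  exact mul_left_cancel₀ h1 h4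

section gal

variable {k e : ℕ} (hk : k.Coprime (Nat.card G)) (hke : k ^ (2 ^ e) ≡ 1 [MOD Nat.card G])

theorem powI_iter (j : ℕ) (χ : IrrCharacter G) (g : G) :
    ((powI k hk)^[j] χ : G → ℂ) g = (χ : G → ℂ) (g ^ (k ^ j)) := by
  induction j generalizing g with
  | zero => simp
  | succ j ih =>
    rw [Function.iterate_succ_apply', powI_apply, ih, ← pow_mul, pow_succ' k j]

include hke in
theorem powI_id (χ : IrrCharacter G) : (powI k hk)^[2 ^ e] χ = χ := by
  apply Subtype.ext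
  funext g
  rw [powI_iter]
  have h1 : k ^ (2 ^ e) ≡ 1 [MOD orderOf g] := hke.of_dvd (orderOf_dvd_natCard g)
  have := pow_eq_pow_iff_modEq.mpr h1
  rw [pow_one] at this
  rw [this]

theorem mu_powI {θ : IrrCharacter N} (hθ : ∀ n : N, (θ : N → ℂ) (n ^ k) = (θ : N → ℂ) n) (χ : IrrCharacter G) :
    mu N (powI k hk χ) θ = mu N χ θ := by
  have hkN : (Nat.card N).Coprime k := (Nat.Coprime.coprime_dvd_right (Subgroup.card_subgroup_dvd_card N) hk).symm
  have h1 := mu_spec N (powI k hk χ) θ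
  have h2 := mu_spec N χ θ
  have h3 := ci_pow hkN (fun m : N => (χ : G → ℂ) m) (θ : N → ℂ)
  have h4 : (fun n : N => ((powI k hk χ : IrrCharacter G) : G → ℂ) n) = fun n : N => (fun m : N => (χ : G → ℂ) m) (n ^ k) := by
    funext n
    show (χ : G → ℂ) ((n : G) ^ k) = (χ : G → ℂ) ((n ^ k : N) : G)
    rw [Subgroup.coe_pow]
  have h5 : (fun n : N => (θ : N → ℂ) (n ^ k)) = (θ : N → ℂ) := funext hθ
  rw [h4] at h1
  rw [h5] at h3
  have h6 : (mu N (powI k hk χ) θ : ℂ) = (mu N χ θ : ℂ) := by rw [← h1, h3, h2]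
  exact_mod_cast h6

open Classical in
/-- a stable set of odd cardinality has a fixed member -/
theorem exists_fix (X : Set (IrrCharacter G)) (hX : ∀ χ ∈ X, powI k hk χ ∈ X)
    (hke : k ^ (2 ^ e) ≡ 1 [MOD Nat.card G]) (hodd : Odd (Nat.card X)) :
    ∃ χ ∈ X, powI k hk χ = χ := by
  haveI : Fintype X := Fintype.ofFinite _
  haveI : Fact (Nat.Prime 2) := ⟨Nat.prime_two⟩
  let f : X → X := fun χ => ⟨powI k hk χ, hX χ χ.2⟩
  have hit : ∀ (j : ℕ) (χ : X), ((f^[j] χ : X) : IrrCharacter G) = (powI k hk)^[j] χ := by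
    intro j
    induction j with
    | zero => intro χ; rfl
    | succ j ih => intro χ; rw [Function.iterate_succ_apply', Function.iterate_succ_apply', ← ih]
  obtain ⟨a, ha⟩ := Cfsg.Agent.H3.GalOrb.exists_fixed f (p := 2) (e := e) (by
    funext χ
    apply Subtype.ext
    rw [hit]
    exact powI_id hk hke _) (by
    rw [← Nat.card_eq_fintype_card]
    exact hodd.not_two_dvd_nat)
  exact ⟨a, a.2, congrArg Subtype.val ha⟩

variable (hk₂ : ∀ g : G, Odd (orderOf g) → g ^ k = g⁻¹)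

open Classical in
theorem odd_iff [Fintype (IrrCharacter G)] (B : Set (IrrCharacter G)) (θ : IrrCharacter N) :
    Odd (∑ χ : IrrCharacter G, (if χ ∈ B then (mu N χ θ) ^ 2 else 0)) ↔
      Odd (Nat.card {χ : IrrCharacter G | χ ∈ B ∧ Odd (mu N χ θ)}) := by
  rw [Finset.odd_sum_iff_odd_card_odd]
  have h1 : (Finset.univ.filter (fun χ : IrrCharacter G => Odd (if χ ∈ B then (mu N χ θ) ^ 2 else 0))).card =
      Nat.card {χ : IrrCharacter G | χ ∈ B ∧ Odd (mu N χ θ)} := by
    rw [Nat.card_eq_fintype_card, Fintype.card_subtype]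
    congr 1
    apply Finset.filter_congr
    intro χ _
    by_cases h : χ ∈ B
    · rw [if_pos h]
      constructor
      · intro h1
        exact ⟨h, Nat.odd_pow_iff (two_ne_zero) |>.1 h1⟩
      · rintro ⟨-, h1⟩
        exact h1.pow
    · rw [if_neg h]
      constructor
      · intro h1; exact absurd h1 (by decide)
      · rintro ⟨h1, -⟩; exact absurd h1 h
  rw [h1]

theorem mu_triv : mu N (triv G) (triv N) = 1 := by
  have h1 := mu_spec N (triv G) (triv N)
  have h2 : (fun n : N => ((triv G : IrrCharacter G) : G → ℂ) n) = ((triv N : IrrCharacter N) : N → ℂ) := rfl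
  rw [h2, ci_irr_self (triv N).2] at h1
  exact_mod_cast h1.symm

open Classical in
include hk hk₂ in
theorem odd_triv [M.IsMaximal] [Fintype (IrrCharacter G)] (hke : k ^ (2 ^ e) ≡ 1 [MOD Nat.card G]) (hidx : Odd N.index) :
    Odd (∑ χ : IrrCharacter G, (if χ ∈ principalBlock M G then (mu N χ (triv N)) ^ 2 else 0)) := by
  rw [odd_iff]
  by_contra hev
  rw [Nat.not_odd_iff_even] at hev
  have hmem : triv G ∈ {χ : IrrCharacter G | χ ∈ principalBlock M G ∧ Odd (mu N χ (triv N))} :=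
    ⟨triv_mem, by rw [mu_triv]; exact odd_one⟩
  set X : Set (IrrCharacter G) := {χ : IrrCharacter G | χ ∈ principalBlock M G ∧ Odd (mu N χ (triv N))} with hX
  have hfix1 : ∀ n : N, ((triv N : IrrCharacter N) : N → ℂ) (n ^ k) = ((triv N : IrrCharacter N) : N → ℂ) n := fun _ => rfl
  have hodd : Odd (Nat.card (X \ {triv G} : Set (IrrCharacter G))) := by
    have h1 : Nat.card (X \ {triv G} : Set (IrrCharacter G)) + 1 = Nat.card X := by
      rw [Nat.card_coe_set_eq, Nat.card_coe_set_eq]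
      exact Set.ncard_diff_singleton_add_one hmem (Set.toFinite _)
    rw [← h1] at hev
    rcases Nat.even_or_odd (Nat.card (X \ {triv G} : Set (IrrCharacter G))) with h2 | h2
    · exact absurd hev (by rw [Nat.not_even_iff_odd]; exact h2.add_one)
    · exact h2
  obtain ⟨χ, hχ, hfix⟩ := exists_fix hk (X \ {triv G}) (by
    rintro χ ⟨⟨h1, h2⟩, h3⟩
    refine ⟨⟨powI_mem_principal h1 k hk, by rw [mu_powI N hk hfix1]; exact h2⟩, ?_⟩
    intro h4
    apply h3
    have h5 : powI k hk χ = powI k hk (triv G) := by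
      rw [h4]
      apply Subtype.ext
      rfl
    exact powI_injective k hk h5) hke hodd
  obtain ⟨χ₀, -, huniq⟩ := Cfsg.Agent.S4519.result N hidx k e hk hke hk₂ (triv N) hfix1
  have hne : ∀ ψ : IrrCharacter G, Odd (mu N ψ (triv N)) →
      classInner (fun n : N => (ψ : G → ℂ) n) ((triv N : IrrCharacter N) : N → ℂ) ≠ 0 := by
    intro ψ hψ
    rw [mu_spec]
    intro h
    have h1 : mu N ψ (triv N) = 0 := by exact_mod_cast h
    rw [h1] at hψ
    exact absurd hψ (by decide)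
  have h1 := huniq χ (hne χ hχ.1.2) (fun g => congrFun (congrArg Subtype.val hfix) g)
  have h2 := huniq (triv G) (hne _ hmem.2) (fun g => rfl)
  exact hχ.2 (h1.trans h2.symm)

open Classical in
include hk hk₂ in
theorem odd_of_mem [Fintype (IrrCharacter G)] (hM : IsPModular 2 M) (hke : k ^ (2 ^ e) ≡ 1 [MOD Nat.card G]) (hidx : Odd N.index)
    {θ : IrrCharacter N} (hθ : θ ∈ principalBlock M N) :
    Odd (∑ χ : IrrCharacter G, (if χ ∈ principalBlock M G then (mu N χ θ) ^ 2 else 0)) := by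
  haveI := hM.2.1
  have hidx' : ¬ 2 ∣ N.index := hidx.not_two_dvd_nat
  have h1 := om_trunc N (principalBlock M G) θ
  have h2 := om_trunc N (principalBlock M G) (triv N)
  have h3 := odd_triv N hk hk₂ hke hidx (M := M)
  have hI0 : (N.index : ℂ) ≠ 0 := Nat.cast_ne_zero.2 Subgroup.index_ne_zero_of_finite
  have hin : inertia hN ((triv N : IrrCharacter N) : N → ℂ) = ⊤ := by
    rw [eq_top_iff]
    intro g _
    rw [mem_inertia]
    rfl
  rw [hin, Subgroup.index_top, one_mul] at h2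
  have h4 : ¬ MemLocalIdeal M (om (triv N) (truncZ N (eB (principalBlock M G)))) := by
    intro h
    have h5 := ideal_mul_left (ring_natCast (M := M) N.index) h
    rw [h2, ideal_natCast_iff hM] at h5
    exact h3.not_two_dvd_nat h5
  have h5 : MemLocalIdeal M (om (triv N) (truncZ N (eB (principalBlock M G))) - om θ (truncZ N (eB (principalBlock M G)))) :=
    om_sub_mem_of_sameBlock (χ := triv N) (ψ := θ) hθ (truncZ_mem N (eB_mem_ZI principal_isPBlock))
  by_contra h6
  rw [Nat.not_odd_iff_even] at h6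
  apply h4
  have h7 : MemLocalIdeal M (om θ (truncZ N (eB (principalBlock M G)))) := by
    have h8 : om θ (truncZ N (eB (principalBlock M G))) = ((N.index : ℂ)⁻¹) * ((N.index : ℂ) * om θ (truncZ N (eB (principalBlock M G)))) := by
      rw [← mul_assoc, inv_mul_cancel₀ hI0, one_mul]
    rw [h8]
    apply ideal_mul_left (ring_inv_natCast hM hidx')
    rw [h1, ideal_natCast_iff hM]
    exact Dvd.dvd.mul_left h6.two_dvd _
  have h8 := ideal_add h5 h7
  rwa [sub_add_cancel] at h8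

include hk hk₂ in
theorem main (hM : IsPModular 2 M) (hke : k ^ (2 ^ e) ≡ 1 [MOD Nat.card G]) (hidx : Odd N.index)
    {θ : IrrCharacter N} (hθ : ∀ n : N, (θ : N → ℂ) (n ^ k) = (θ : N → ℂ) n)
    {χ : IrrCharacter G} (hχ : ∀ g : G, (χ : G → ℂ) (g ^ k) = (χ : G → ℂ) g)
    (hover : classInner (fun n : N => (χ : G → ℂ) n) (θ : N → ℂ) ≠ 0) :
    χ ∈ principalBlock M G ↔ θ ∈ principalBlock M N := by
  classical
  haveI := hM.2.1
  haveI : Fintype (IrrCharacter G) := Fintype.ofFinite _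
  haveI : Fintype (IrrCharacter N) := Fintype.ofFinite _
  constructor
  · intro h
    obtain ⟨θ', hθ', g, hg⟩ := constituents_conj (hN := hN) (principal_isPBlock (M := M) (G := G)) (principal_isPBlock (M := M) (G := N))
      (χ := triv G) (χ' := χ) (θ := triv N) (ψ := θ) triv_mem h triv_mem (by
        have h1 := mu_spec N (triv G) (triv N)
        rw [mu_triv] at h1
        rw [h1]; norm_num) hover
    rw [hg]
    have h1 : SameBlock M ((triv N : IrrCharacter N) : N → ℂ) (θ' : N → ℂ) := hθ'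
    have h2 := sameBlock_cjI (hN := hN) h1 g
    have h3 : cjI hN g (triv N) = triv N := Subtype.ext rfl
    rw [h3] at h2
    exact h2
  · intro h
    have h1 := odd_of_mem N hk hk₂ hM hke hidx h
    rw [odd_iff] at h1
    obtain ⟨χ', hχ', hfix⟩ := exists_fix hk {χ : IrrCharacter G | χ ∈ principalBlock M G ∧ Odd (mu N χ θ)} (by
      rintro χ ⟨h1, h2⟩
      exact ⟨powI_mem_principal h1 k hk, by rw [mu_powI N hk hθ]; exact h2⟩) hke h1
    obtain ⟨χ₀, -, huniq⟩ := Cfsg.Agent.S4519.result N hidx k e hk hke hk₂ θ hθ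
    have hne : classInner (fun n : N => (χ' : G → ℂ) n) (θ : N → ℂ) ≠ 0 := by
      rw [mu_spec]
      intro h
      have h1 : mu N χ' θ = 0 := by exact_mod_cast h
      have h2 := hχ'.2
      rw [h1] at h2
      exact absurd h2 (by decide)
    have h2 := huniq χ' hne (fun g => congrFun (congrArg Subtype.val hfix) g)
    have h3 := huniq χ hover hχ
    rw [h3, ← h2]
    exact hχ'.1

end gal

end Cfsg.Agent.H10.B0Odd
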