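import Mathlib
import Cfsg.Prelude.Def_Blocks
import Cfsg.Agent.H25_Red
import Cfsg.Agent.H9_BrRed

/-!
H10_IdemLift: lifting idempotents from `kG` to the local ring of algebraic integers; lifting linear
independence.
-/

set_option autoImplicit false
set_option linter.style.haveILetI false
set_option linter.unusedSectionVars false

namespace Cfsg.Agent.H10.IdemLift

open Module Polynomial

theorem aeval_idem {k : Type*} [Field k] {L : Type*} [Ring L] [Algebra k L] {j : L} (hj : j * j = j) (q : k[X]) :
    aeval j q = (q.eval 1) • j + (q.eval 0) • (1 - j) := by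
  induction q using Polynomial.induction_on' with
  | add a b ha hb =>
    rw [map_add, ha, hb, eval_add, eval_add]; module
  | monomial n a =>
    rw [aeval_monomial, eval_monomial, eval_monomial, one_pow, mul_one]
    rcases n with _ | n
    · simp only [pow_zero, mul_one, Algebra.algebraMap_eq_smul_one]
      rw [← smul_add]; simp
    · have h1 : j ^ (n + 1) = j := by
        induction n with
        | zero => simp
        | succ n ih => rw [pow_succ, ih, hj]
      rw [h1, zero_pow (Nat.succ_ne_zero n), mul_zero, zero_smul, add_zero, Algebra.algebraMap_eq_smul_one,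
        smul_mul_assoc, one_mul]

/-- lifting of idempotents, when an integral equation splits -/
theorem lift_idem {O : Type*} [CommRing O] {k : Type*} [Field k] (rs : O →+* k)
    (hu : ∀ r : O, rs r ≠ 0 → IsUnit r) {L L' : Type*} [Ring L] [Algebra O L] [Ring L'] [Algebra k L']
    (red : L →+* L') (hred : ∀ r : O, red (algebraMap O L r) = algebraMap k L' (rs r)) (x : L)
    (hj : red x * red x = red x) (s : Multiset O) (hs : aeval x (s.map fun a => X - C a).prod = 0) :
    ∃ e : L, e * e = e ∧ red e = red x := by
  classical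
  set j := red x with hjd
  have hae : ∀ q : O[X], red (aeval x q) = aeval j (q.map rs) := by
    intro q
    induction q using Polynomial.induction_on' with
    | add a b ha hb => rw [map_add, map_add, ha, hb, Polynomial.map_add, map_add]
    | monomial n a => rw [aeval_monomial, map_mul, map_pow, hred, Polynomial.map_monomial, aeval_monomial]
  set s0 := s.filter (fun a => rs a = 0) with hs0
  set s1 := s.filter (fun a => ¬ rs a = 0) with hs1
  have hss : s = s0 + s1 := (Multiset.filter_add_not _ s).symm
  set g : O[X] := (s0.map fun a => X - C a).prod with hg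
  set h : O[X] := (s1.map fun a => X - C a).prod with hh
  have hgh : (s.map fun a => X - C a).prod = g * h := by
    rw [hss, Multiset.map_add, Multiset.prod_add]
  have hcop : IsCoprime g h := by
    have h1 : ∀ a ∈ s0, ∀ b ∈ s1, IsCoprime (X - C a : O[X]) (X - C b) := by
      intro a ha b hb
      apply Polynomial.isCoprime_X_sub_C_of_isUnit_sub
      apply hu
      rw [map_sub, (Multiset.mem_filter.1 ha).2, zero_sub]
      exact neg_ne_zero.2 (Multiset.mem_filter.1 hb).2
    have h2 : ∀ t : Multiset O, (∀ a ∈ t, ∀ b ∈ s1, IsCoprime (X - C a : O[X]) (X - C b)) →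
        IsCoprime (t.map fun a => (X - C a : O[X])).prod h := by
      intro t
      induction t using Multiset.induction_on with
      | empty => intro _; rw [Multiset.map_zero, Multiset.prod_zero]; exact isCoprime_one_left
      | cons a t ih =>
        intro ht
        rw [Multiset.map_cons, Multiset.prod_cons]
        refine IsCoprime.mul_left ?_ (ih fun b hb => ht b (Multiset.mem_cons_of_mem hb))
        have h3 : ∀ u : Multiset O, (∀ b ∈ u, IsCoprime (X - C a : O[X]) (X - C b)) →
            IsCoprime (X - C a : O[X]) (u.map fun a => (X - C a : O[X])).prod := by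
          intro u
          induction u using Multiset.induction_on with
          | empty => intro _; rw [Multiset.map_zero, Multiset.prod_zero]; exact isCoprime_one_right
          | cons b u ih' =>
            intro hu'
            rw [Multiset.map_cons, Multiset.prod_cons]
            exact IsCoprime.mul_right (hu' b (Multiset.mem_cons_self _ _)) (ih' fun c hc => hu' c (Multiset.mem_cons_of_mem hc))
        exact h3 s1 fun b hb => ht a (Multiset.mem_cons_self _ _) b hb
    exact h2 s0 h1
  obtain ⟨u, v, huv⟩ := hcop
  -- the case of no roots in the ideal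
  have hprod : ∀ t : Multiset O, ∀ c : k, ((t.map fun a => (X - C a : O[X])).prod.map rs).eval c =
      (t.map fun a => c - rs a).prod := by
    intro t c
    induction t using Multiset.induction_on with
    | empty => simp
    | cons a t ih => rw [Multiset.map_cons, Multiset.prod_cons, Polynomial.map_mul, eval_mul, ih, Multiset.map_cons,
        Multiset.prod_cons]; simp
  have hz : aeval j ((g * h).map rs) = 0 := by rw [← hae, ← hgh, hs, map_zero]
  by_cases h0 : s0 = 0
  · refine ⟨1, one_mul 1, ?_⟩
    rw [map_one]
    have hg1 : g = 1 := by rw [hg, h0, Multiset.map_zero, Multiset.prod_zero]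
    rw [hg1, one_mul, aeval_idem hj] at hz
    have h2 : (h.map rs).eval 0 ≠ 0 := by
      rw [hh, hprod]
      apply Multiset.prod_ne_zero
      rw [Multiset.mem_map]
      rintro ⟨a, ha, h⟩
      rw [zero_sub, neg_eq_zero] at h
      exact (Multiset.mem_filter.1 ha).2 h
    have h3 := congrArg (fun z => z * (1 - j)) hz
    simp only [add_mul, smul_mul_assoc, zero_mul] at h3
    have h4 : j * (1 - j) = 0 := by rw [mul_sub, mul_one, hj, sub_self]
    have h5 : (1 - j) * (1 - j) = 1 - j := by rw [mul_sub, mul_one, sub_mul, one_mul, hj, sub_self, sub_zero]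
    rw [h4, smul_zero, zero_add, h5] at h3
    exact sub_eq_zero.1 ((smul_eq_zero.1 h3).resolve_left h2)
  · refine ⟨aeval x (u * g), ?_, ?_⟩
    · have h1 : aeval x (u * g) + aeval x (v * h) = 1 := by rw [← map_add, huv, map_one]
      have h2 : aeval x (u * g) * aeval x (v * h) = 0 := by
        rw [← map_mul]
        have : u * g * (v * h) = (u * v) * (g * h) := by ring
        rw [this, map_mul, ← hgh, hs, mul_zero]
      have h3 : aeval x (v * h) = 1 - aeval x (u * g) := by rw [← h1]; abel
      rw [h3, mul_sub, mul_one, sub_eq_zero] at h2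
      exact h2.symm
    · rw [hae, aeval_idem hj]
      have hg0 : (g.map rs).eval 0 = 0 := by
        rw [hg, hprod]
        obtain ⟨a, ha⟩ := Multiset.exists_mem_of_ne_zero h0
        apply Multiset.prod_eq_zero
        rw [Multiset.mem_map]
        exact ⟨a, ha, by rw [(Multiset.mem_filter.1 ha).2, sub_zero]⟩
      have hg1 : (g.map rs).eval 1 = 1 := by
        rw [hg, hprod]
        apply Multiset.prod_eq_one
        intro c hc
        obtain ⟨a, ha, rfl⟩ := Multiset.mem_map.1 hc
        rw [(Multiset.mem_filter.1 ha).2, sub_zero]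
      rw [aeval_idem hj, Polynomial.map_mul, eval_mul, eval_mul, hg0, hg1, one_mul, zero_mul, zero_smul, add_zero] at hz
      have h4 := congrArg (fun q : O[X] => (q.map rs).eval 1) huv
      simp only [Polynomial.map_add, Polynomial.map_mul, eval_add, eval_mul, hg1, mul_one, Polynomial.map_one, eval_one] at h4
      rw [Polynomial.map_mul, eval_mul, eval_mul, hg0, hg1, mul_zero, zero_smul, add_zero, mul_one]
      have h5 : (u.map rs).eval 1 = 1 - (v.map rs).eval 1 * (h.map rs).eval 1 := by linear_combination h4
      rw [h5, sub_smul, one_smul, mul_smul, hz, smul_zero, sub_zero]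

section group

open Cfsg Cfsg.Agent.H10.BlockLoc Cfsg.Agent.H10.BlockAlg Cfsg.Agent.H25.Red

variable {M : Ideal AlgInt} [hMax : M.IsMaximal] {G : Type*} [Group G] [Fintype G]

theorem isUnit_of_rs {r : locRing M} (h : rs M r ≠ 0) : IsUnit r := by
  have h1 : ¬ MemLocalIdeal M (r : ℂ) := fun h2 => h ((res_eq_zero_iff r).2 h2)
  have h2 : MemLocalRing M ((r : ℂ)⁻¹) := ring_inv r.2 h1
  have h0 : (r : ℂ) ≠ 0 := ne_zero_of_not_ideal h1
  exact IsUnit.of_mul_eq_one ⟨_, h2⟩ (Subtype.ext (mul_inv_cancel₀ h0))

/-- splitting of monic polynomials over the algebraic integers -/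
theorem split_algInt {P : AlgInt[X]} (hP : P.Monic) : ∃ s : Multiset AlgInt, P = (s.map fun a => X - C a).prod := by
  have hinj : Function.Injective (algebraMap AlgInt ℂ) := Subtype.val_injective
  have h1 := (IsAlgClosed.splits (P.map (algebraMap AlgInt ℂ)))
  have hmon : (P.map (algebraMap AlgInt ℂ)).Monic := hP.map _
  have h2 : P.map (algebraMap AlgInt ℂ) = ((P.map (algebraMap AlgInt ℂ)).roots.map fun a => X - C a).prod := by
    have := h1.eq_prod_roots
    rw [hmon.leadingCoeff, C_1, one_mul] at this
    exact this
  have h3 : ∀ t : Multiset ℂ, (∀ r ∈ t, IsIntegral ℤ r) → ∃ s : Multiset AlgInt, s.map (algebraMap AlgInt ℂ) = t := by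
    intro t
    induction t using Multiset.induction_on with
    | empty => intro _; exact ⟨0, rfl⟩
    | cons a t ih =>
      intro ht
      obtain ⟨s, hs⟩ := ih fun r hr => ht r (Multiset.mem_cons_of_mem hr)
      exact ⟨⟨a, ht a (Multiset.mem_cons_self _ _)⟩ ::ₘ s, by rw [Multiset.map_cons, hs]; rfl⟩
  obtain ⟨s, hs⟩ := h3 (P.map (algebraMap AlgInt ℂ)).roots (by
    intro r hr
    have hr' : (P.map (algebraMap AlgInt ℂ)).IsRoot r := (Polynomial.mem_roots'.1 hr).2
    have h4 : IsIntegral AlgInt r := ⟨P, hP, by rw [Polynomial.IsRoot, Polynomial.eval_map] at hr'; exact hr'⟩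
    haveI : Algebra.IsIntegral ℤ AlgInt := integralClosure.AlgebraIsIntegral
    exact isIntegral_trans r h4)
  refine ⟨s, ?_⟩
  apply Polynomial.map_injective _ hinj
  rw [h2, ← hs, Polynomial.map_multiset_prod, Multiset.map_map, Multiset.map_map]
  congr 1
  apply Multiset.map_congr rfl
  intro a _
  simp

/-- idempotents of `kG` lift to idempotents over the local ring -/
theorem exists_lift (j : MonoidAlgebra (KM M) G) (hj : j * j = j) :
    ∃ e : MonoidAlgebra ℂ G, e * e = e ∧ (∀ g, MemLocalRing M (e.coeff g)) ∧ ∀ g, rd M (e.coeff g) = j.coeff g := by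
  classical
  -- lift to algebraic integers
  have hsurj : ∀ a : KM M, ∃ z : AlgInt, ∃ hz : MemLocalRing M (z : ℂ), rs M ⟨z, hz⟩ = a := by
    intro a
    obtain ⟨z, rfl⟩ := Ideal.Quotient.mk_surjective (a : AlgInt ⧸ M)
    have hz := memLocalRing_of_algInt hMax.ne_top z
    exact ⟨z, hz, res_algInt z hz⟩
  choose z hz hza using hsurj
  let ι : AlgInt →+* locRing M :=
    { toFun := fun a => ⟨(a : ℂ), memLocalRing_of_algInt hMax.ne_top a⟩
      map_one' := rfl
      map_mul' := fun _ _ => rfl
      map_zero' := rfl
      map_add' := fun _ _ => rfl }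
  let x0 : MonoidAlgebra AlgInt G := MonoidAlgebra.ofCoeff (Finsupp.equivFunOnFinite.symm fun g => z (j.coeff g))
  let red : MonoidAlgebra (locRing M) G →+* MonoidAlgebra (KM M) G := MonoidAlgebra.mapRingHom G (rs M)
  let inc : MonoidAlgebra (locRing M) G →+* MonoidAlgebra ℂ G := MonoidAlgebra.mapRingHom G (locRing M).subtype
  let up : MonoidAlgebra AlgInt G →+* MonoidAlgebra (locRing M) G := MonoidAlgebra.mapRingHom G ι
  have hint : IsIntegral AlgInt x0 := Algebra.IsIntegral.isIntegral x0
  obtain ⟨P, hP, hPx⟩ := hint
  obtain ⟨s, hs⟩ := split_algInt hP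
  have hredx : red (up x0) = j := by
    apply Cfsg.Agent.H25.KG.ext_c
    intro g
    show rs M (ι (z (j.coeff g))) = j.coeff g
    exact hza _
  have hup : ∀ a : AlgInt, up (algebraMap AlgInt _ a) = algebraMap (locRing M) _ (ι a) := by
    intro a
    simp [up, MonoidAlgebra.mapRingHom_single]
  have hupae : ∀ q : AlgInt[X], up (aeval x0 q) = aeval (up x0) (q.map ι) := by
    intro q
    induction q using Polynomial.induction_on' with
    | add a b ha hb => rw [map_add, map_add, ha, hb, Polynomial.map_add, map_add]
    | monomial n a => rw [aeval_monomial, map_mul, map_pow, hup, Polynomial.map_monomial, aeval_monomial]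
  obtain ⟨e, he, hee⟩ := lift_idem (rs M) (fun r hr => isUnit_of_rs hr) red (by
    intro r
    simp [red, MonoidAlgebra.mapRingHom_single]) (up x0) (by rw [hredx, hj]) (s.map ι) (by
      have h1 : ((s.map ι).map fun a => X - C a).prod = P.map ι := by
        rw [hs, Polynomial.map_multiset_prod, Multiset.map_map, Multiset.map_map]
        congr 1
        apply Multiset.map_congr rfl
        intro a _
        simp
      rw [h1, ← hupae]
      have h2 : aeval x0 P = 0 := hPx
      rw [h2, map_zero])
  refine ⟨inc e, by rw [← map_mul, he], fun g => ?_, fun g => ?_⟩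
  · show MemLocalRing M ((e.coeff g : locRing M) : ℂ)
    exact (e.coeff g).2
  · show rd M ((e.coeff g : locRing M) : ℂ) = j.coeff g
    rw [rd_of (e.coeff g).2]
    have h1 : (red e).coeff g = j.coeff g := by rw [hee, hredx]
    exact h1

/-- linear independence lifts -/
theorem li_of_red {X : Type*} [Fintype X] {n : ℕ} (v : Fin n → X → ℂ) (hv : ∀ i x, MemLocalRing M (v i x))
    (h : LinearIndependent (KM M) (fun i x => rd M (v i x))) : LinearIndependent ℂ v := by
  classical
  set φ : (Fin n → KM M) →ₗ[KM M] (X → KM M) := Fintype.linearCombination (KM M) (fun i x => rd M (v i x)) with hφ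
  have hker : LinearMap.ker φ = ⊥ := by
    rw [hφ]; exact LinearMap.ker_eq_bot.2 (linearIndependent_iff_injective_fintypeLinearCombination.1 h)
  obtain ⟨ψ, hψ⟩ := LinearMap.exists_leftInverse_of_injective φ hker
  have hW : ∀ i x, ∃ w : ℂ, MemLocalRing M w ∧ rd M w = ψ (Pi.single x 1) i := fun i x => rd_surj _
  choose W hW1 hW2 using hW
  have hD : ∀ i l, ∑ x, ψ (Pi.single x 1) i * rd M (v l x) = if i = l then 1 else 0 := by
    intro i l
    have h1 := LinearMap.congr_fun hψ (Pi.single l 1)
    rw [LinearMap.comp_apply, LinearMap.id_apply] at h1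
    have h2 : φ (Pi.single l 1) = fun x => rd M (v l x) := by
      rw [hφ, Fintype.linearCombination_apply_single, one_smul]
    rw [h2] at h1
    have h3 : (fun x => rd M (v l x)) = ∑ x, rd M (v l x) • (Pi.single x (1 : KM M) : X → KM M) := by
      funext y
      rw [Finset.sum_apply]
      simp [Pi.single_apply]
    rw [h3, map_sum] at h1
    have h4 := congrFun h1 i
    rw [Finset.sum_apply] at h4
    simp only [map_smul, Pi.smul_apply, smul_eq_mul] at h4
    rw [Pi.single_apply] at h4
    rw [← h4]
    exact Finset.sum_congr rfl fun x _ => mul_comm _ _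
  let D : Matrix (Fin n) (Fin n) (locRing M) := fun i l => ⟨∑ x, W i x * v l x, ring_sum _ _ fun x _ => ring_mul (hW1 i x) (hv l x)⟩
  have hDred : (rs M).mapMatrix D = 1 := by
    ext i l
    rw [RingHom.mapMatrix_apply, Matrix.map_apply, Matrix.one_apply, ← hD i l]
    have h1 : rs M (D i l) = rd M (∑ x, W i x * v l x) := (rd_of _).symm
    rw [h1, rd_sum _ _ fun x _ => ring_mul (hW1 i x) (hv l x)]
    refine Finset.sum_congr rfl fun x _ => ?_
    rw [rd_mul (hW1 i x) (hv l x), hW2]
  have hdet : D.det ≠ 0 := by
    intro h0
    have h1 := RingHom.map_det (rs M) D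
    rw [hDred, h0, map_zero, Matrix.det_one] at h1
    exact zero_ne_one h1
  have hdetC : (((locRing M).subtype).mapMatrix D).det ≠ 0 := by
    rw [← RingHom.map_det]
    intro h0
    exact hdet (Subtype.ext h0)
  rw [Fintype.linearIndependent_iff]
  intro c hc
  have h1 : (((locRing M).subtype).mapMatrix D).mulVec c = 0 := by
    funext i
    rw [Matrix.mulVec, dotProduct, Pi.zero_apply]
    have h2 : ∀ l, (((locRing M).subtype).mapMatrix D) i l * c l = ∑ x, W i x * (c l * v l x) := by
      intro l
      show (∑ x, W i x * v l x) * c l = _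
      rw [Finset.sum_mul]
      exact Finset.sum_congr rfl fun x _ => by ring
    rw [Finset.sum_congr rfl fun l _ => h2 l, Finset.sum_comm]
    apply Finset.sum_eq_zero
    intro x _
    rw [← Finset.mul_sum]
    have h3 := congrFun hc x
    rw [Finset.sum_apply] at h3
    simp only [Pi.smul_apply, smul_eq_mul, Pi.zero_apply] at h3
    rw [h3, mul_zero]
  have h2 := Matrix.eq_zero_of_mulVec_eq_zero hdetC h1
  intro i
  exact congrFun h2 i

end group

end Cfsg.Agent.H10.IdemLift
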