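import Mathlib

/-!
H10_LocAlg: local symmetric algebras with small commutator quotient are commutative
(stated for a corner `jRj` of an algebra `R`).
-/

set_option autoImplicit false
set_option linter.style.haveILetI false
set_option linter.unusedSectionVars false

namespace Cfsg.Agent.H10.LocAlg

open Module

variable (k : Type*) [Field k] {R : Type*} [Ring R] [Algebra k R]

/-- the corner -/
def cor (j : R) : Submodule k R where
  carrier := {x | j * x = x ∧ x * j = x}
  zero_mem' := by simp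
  add_mem' := by
    rintro a b ⟨h1, h2⟩ ⟨h3, h4⟩
    exact ⟨by rw [mul_add, h1, h3], by rw [add_mul, h2, h4]⟩
  smul_mem' := by
    rintro c a ⟨h1, h2⟩
    exact ⟨by rw [mul_smul_comm, h1], by rw [smul_mul_assoc, h2]⟩

/-- the span of the commutators of the corner -/
def cm (j : R) : Submodule k R := Submodule.span k {z | ∃ a ∈ cor k j, ∃ b ∈ cor k j, z = a * b - b * a}

variable {k}

theorem mem_cor {j x : R} : x ∈ cor k j ↔ j * x = x ∧ x * j = x := Iff.rfl

theorem cor_mul {j a b : R} (ha : a ∈ cor k j) (hb : b ∈ cor k j) : a * b ∈ cor k j :=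
  ⟨by rw [← mul_assoc, ha.1], by rw [mul_assoc, hb.2]⟩

/-- a nilpotent ideal of codimension one in the corner -/
structure Dat (j : R) (J : Submodule k R) : Prop where
  jj : j * j = j
  le : J ≤ cor k j
  l : ∀ a ∈ cor k j, ∀ x ∈ J, a * x ∈ J
  r : ∀ a ∈ cor k j, ∀ x ∈ J, x * a ∈ J
  d : ∀ a ∈ cor k j, ∃ c : k, a - c • j ∈ J
  n : ∃ n : ℕ, J ^ n = ⊥

variable {j : R} {J : Submodule k R}

theorem j_mem (h : Dat j J) : j ∈ cor k j := ⟨h.jj, h.jj⟩

theorem pow_le (h : Dat j J) (m : ℕ) : J ^ (m + 1) ≤ J := by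
  induction m with
  | zero => rw [zero_add, pow_one]
  | succ m ih =>
    rw [pow_succ]
    exact Submodule.mul_le.2 fun a ha b hb => h.l a (h.le (ih ha)) b hb

theorem pow_l (h : Dat j J) (m : ℕ) {a : R} (ha : a ∈ cor k j) {x : R} (hx : x ∈ J ^ (m + 1)) : a * x ∈ J ^ (m + 1) := by
  rw [pow_succ'] at hx ⊢
  refine Submodule.mul_induction_on hx (fun u hu v hv => ?_) (fun u v hu hv => ?_)
  · rw [← mul_assoc]; exact Submodule.mul_mem_mul (h.l a ha u hu) hv
  · rw [mul_add]; exact add_mem hu hv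

theorem pow_anti (h : Dat j J) {m n : ℕ} (hmn : m ≤ n) : J ^ (n + 1) ≤ J ^ (m + 1) := by
  obtain ⟨t, rfl⟩ := Nat.exists_eq_add_of_le hmn
  clear hmn
  induction t with
  | zero => rfl
  | succ t ih =>
    refine le_trans ?_ ih
    rw [show m + (t + 1) + 1 = (m + t + 1) + 1 by ring, pow_succ' J (m + t + 1)]
    exact Submodule.mul_le.2 fun a ha b hb => pow_l h _ (h.le ha) hb

theorem pow_bot (h : Dat j J) {m : ℕ} (hm : J ^ (m + 1) ≤ J ^ (m + 2)) : J ^ (m + 1) = ⊥ := by
  obtain ⟨n, hn⟩ := h.n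
  have h1 : ∀ t : ℕ, J ^ (m + 1) ≤ J ^ (m + 1 + t) := by
    intro t
    induction t with
    | zero => rfl
    | succ t ih =>
      refine le_trans hm ?_
      have : J ^ (m + 2) = J ^ (m + 1) * J := by rw [← pow_succ]
      rw [this]
      have h2 : J ^ (m + 1 + (t + 1)) = J ^ (m + 1 + t) * J := by rw [← pow_succ]; congr 1
      rw [h2]
      exact mul_le_mul' ih le_rfl
  rw [eq_bot_iff]
  refine (h1 n).trans ?_
  rw [pow_add, hn]
  rw [Submodule.mul_bot]

theorem comm_dec (h : Dat j J) {a b : R} (ha : a ∈ cor k j) (hb : b ∈ cor k j) :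
    ∃ s ∈ J, ∃ t ∈ J, a * b - b * a = s * t - t * s := by
  obtain ⟨c, hc⟩ := h.d a ha
  obtain ⟨d, hd⟩ := h.d b hb
  refine ⟨_, hc, _, hd, ?_⟩
  have e1 := h.jj
  have e2 := ha.1
  have e3 := ha.2
  have e4 := hb.1
  have e5 := hb.2
  simp only [sub_mul, mul_sub, smul_mul_assoc, mul_smul_comm, e1, e2, e3, e4, e5, smul_sub]
  rw [smul_comm d c]
  abel

theorem cm_le (h : Dat j J) : cm k j ≤ J ^ 2 := by
  unfold cm
  rw [Submodule.span_le]
  rintro z ⟨a, ha, b, hb, rfl⟩
  obtain ⟨s, hs, t, ht, h1⟩ := comm_dec h ha hb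
  rw [h1, pow_two]
  exact sub_mem (Submodule.mul_mem_mul hs ht) (Submodule.mul_mem_mul ht hs)

/-- generators modulo a subspace -/
theorem gen1 [FiniteDimensional k R] {V W : Submodule k R} (hVW : V ≤ W) (hd : finrank k W ≤ finrank k V + 1) :
    ∃ x ∈ W, W ≤ Submodule.span k {x} ⊔ V := by
  by_cases h : V = W
  · exact ⟨0, zero_mem _, h ▸ le_sup_right⟩
  · obtain ⟨x, hxW, hxV⟩ := SetLike.exists_of_lt (lt_of_le_of_ne hVW h)
    refine ⟨x, hxW, ?_⟩
    have h1 : Submodule.span k {x} ⊔ V ≤ W := sup_le ((Submodule.span_singleton_le_iff_mem _ _).2 hxW) hVW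
    have h2 : V < Submodule.span k {x} ⊔ V := by
      refine lt_of_le_of_ne le_sup_right fun h2 => hxV ?_
      rw [h2]
      exact le_sup_left (a := Submodule.span k {x}) (Submodule.mem_span_singleton_self x)
    have h3 := Submodule.finrank_lt_finrank_of_lt h2
    have h4 := Submodule.eq_of_le_of_finrank_le h1 (by omega)
    exact h4.ge

theorem gen2 [FiniteDimensional k R] {V W : Submodule k R} (hVW : V ≤ W) (hd : finrank k W ≤ finrank k V + 2) :
    ∃ x ∈ W, ∃ y ∈ W, W ≤ Submodule.span k {x, y} ⊔ V := by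
  by_cases h : V = W
  · exact ⟨0, zero_mem _, 0, zero_mem _, h ▸ le_sup_right⟩
  · obtain ⟨x, hxW, hxV⟩ := SetLike.exists_of_lt (lt_of_le_of_ne hVW h)
    have h1 : Submodule.span k {x} ⊔ V ≤ W := sup_le ((Submodule.span_singleton_le_iff_mem _ _).2 hxW) hVW
    have h2 : V < Submodule.span k {x} ⊔ V := by
      refine lt_of_le_of_ne le_sup_right fun h2 => hxV ?_
      rw [h2]
      exact le_sup_left (a := Submodule.span k {x}) (Submodule.mem_span_singleton_self x)
    have h3 := Submodule.finrank_lt_finrank_of_lt h2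
    obtain ⟨y, hy, h4⟩ := gen1 h1 (by omega)
    refine ⟨x, hxW, y, hy, h4.trans ?_⟩
    rw [← sup_assoc]
    apply sup_le_sup_right
    rw [Submodule.span_insert, sup_comm]

theorem eq3 (h : Dat j J) {u v w z : R} {b c : k} (h1 : u * v - b • z ∈ J ^ 3) (h2 : v * w - c • z ∈ J ^ 3)
    (hu : u ∈ J) (hw : w ∈ J) : b • (z * w) - c • (u * z) ∈ J ^ 4 := by
  have h3 : (u * v - b • z) * w ∈ J ^ 4 := by
    rw [show (4:ℕ) = 3 + 1 from rfl, pow_succ]; exact Submodule.mul_mem_mul h1 hw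
  have h4 : u * (v * w - c • z) ∈ J ^ 4 := by
    rw [show (4:ℕ) = 3 + 1 from rfl, pow_succ']; exact Submodule.mul_mem_mul hu h2
  have h5 : b • (z * w) - c • (u * z) = u * (v * w - c • z) - (u * v - b • z) * w := by
    rw [sub_mul, mul_sub, smul_mul_assoc, mul_smul_comm, mul_assoc]; abel
  rw [h5]
  exact sub_mem h4 h3

/-- one generator: commutative -/
theorem cm_bot_of_one (h : Dat j J) {x : R} (hx : x ∈ J) (hg : J ≤ Submodule.span k {x} ⊔ J ^ 2) : cm k j = ⊥ := by
  set P : Submodule k R := Submodule.span k (Set.range fun i : ℕ => x ^ (i + 1)) with hP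
  have hPP : P * P ≤ P := by
    rw [hP, Submodule.span_mul_span, Submodule.span_le]
    rintro _ ⟨_, ⟨a, rfl⟩, _, ⟨b, rfl⟩, rfl⟩
    apply Submodule.subset_span
    exact ⟨a + b + 1, by simp only [← pow_add]; congr 1; ring⟩
  have hPc : ∀ a ∈ P, ∀ b ∈ P, a * b = b * a := by
    intro a ha b hb
    rw [hP] at ha hb
    refine Submodule.span_induction₂ (p := fun a b _ _ => a * b = b * a) ?_ ?_ ?_ ?_ ?_ ?_ ?_ ha hb
    · rintro _ _ ⟨a, rfl⟩ ⟨b, rfl⟩; simp only [← pow_add, add_comm]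
    · intro y _; simp
    · intro y _; simp
    · intro x y z _ _ _ h1 h2; rw [add_mul, mul_add, h1, h2]
    · intro x y z _ _ _ h1 h2; rw [add_mul, mul_add, h1, h2]
    · intro r x y _ _ h1; rw [smul_mul_assoc, mul_smul_comm, h1]
    · intro r x y _ _ h1; rw [smul_mul_assoc, mul_smul_comm, h1]
  have hPJ : P ≤ J := by
    rw [hP, Submodule.span_le]
    rintro _ ⟨a, rfl⟩
    exact pow_le h a (Submodule.pow_mem_pow J hx (a + 1))
  have hxP : Submodule.span k {x} ≤ P := by
    rw [Submodule.span_singleton_le_iff_mem, hP]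
    exact Submodule.subset_span ⟨0, by simp⟩
  have key : ∀ m : ℕ, J ≤ P ⊔ J ^ (m + 1) := by
    intro m
    induction m with
    | zero => rw [zero_add, pow_one]; exact le_sup_right
    | succ m ih =>
      refine hg.trans (sup_le (hxP.trans le_sup_left) ?_)
      rw [pow_two]
      refine Submodule.mul_le.2 fun a ha b hb => ?_
      obtain ⟨s, hs, t, ht, rfl⟩ := Submodule.mem_sup.1 (ih ha)
      obtain ⟨s', hs', t', ht', rfl⟩ := Submodule.mem_sup.1 (ih hb)
      have h1 : (s + t) * (s' + t') = s * s' + (s * t' + t * (s' + t')) := by rw [add_mul, mul_add, mul_add]; abel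
      rw [h1]
      refine Submodule.add_mem_sup (hPP (Submodule.mul_mem_mul hs hs')) (add_mem ?_ ?_)
      · rw [pow_succ']; exact Submodule.mul_mem_mul (hPJ hs) ht'
      · rw [pow_succ]; exact Submodule.mul_mem_mul ht (add_mem (hPJ hs') (pow_le h m ht'))
  have key2 : ∀ m : ℕ, cm k j ≤ J ^ (m + 2) := by
    intro m
    unfold cm
    rw [Submodule.span_le]
    rintro z ⟨a, ha, b, hb, rfl⟩
    obtain ⟨s, hs, t, ht, h1⟩ := comm_dec h ha hb
    rw [h1]
    obtain ⟨s1, hs1, s2, hs2, rfl⟩ := Submodule.mem_sup.1 (key m hs)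
    obtain ⟨t1, ht1, t2, ht2, rfl⟩ := Submodule.mem_sup.1 (key m ht)
    have h2 : (s1 + s2) * (t1 + t2) - (t1 + t2) * (s1 + s2) =
        (s1 * t2 + s2 * (t1 + t2)) - (t1 * s2 + t2 * (s1 + s2)) := by
      have h3 := hPc s1 hs1 t1 ht1
      rw [add_mul, mul_add s1, add_mul, mul_add t1, h3]; abel
    rw [h2]
    have e1 : J ^ (m + 2) = J ^ (m + 1) * J := pow_succ _ _
    have e2 : J ^ (m + 2) = J * J ^ (m + 1) := pow_succ' _ _
    refine sub_mem (add_mem ?_ ?_) (add_mem ?_ ?_)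
    · rw [e2]; exact Submodule.mul_mem_mul (hPJ hs1) ht2
    · rw [e1]; exact Submodule.mul_mem_mul hs2 ht
    · rw [e2]; exact Submodule.mul_mem_mul (hPJ ht1) hs2
    · rw [e1]; exact Submodule.mul_mem_mul ht2 hs
  obtain ⟨n, hn⟩ := h.n
  rw [eq_bot_iff]
  refine (key2 n).trans ?_
  rw [pow_add, hn, Submodule.bot_mul]

/-- two generators with one-dimensional square: the cube vanishes -/
theorem cube_bot (h : Dat j J) {x y z : R} (hx : x ∈ J) (hy : y ∈ J) (hz : z = x * y - y * x)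
    (hg : J ≤ Submodule.span k {x, y} ⊔ J ^ 2) (h2 : J ^ 2 ≤ Submodule.span k {z} ⊔ J ^ 3) : J ^ 3 = ⊥ := by
  have hxx : x * x ∈ J ^ 2 := by rw [pow_two]; exact Submodule.mul_mem_mul hx hx
  have hxy : x * y ∈ J ^ 2 := by rw [pow_two]; exact Submodule.mul_mem_mul hx hy
  have hyx : y * x ∈ J ^ 2 := by rw [pow_two]; exact Submodule.mul_mem_mul hy hx
  have hyy : y * y ∈ J ^ 2 := by rw [pow_two]; exact Submodule.mul_mem_mul hy hy
  have hz2 : z ∈ J ^ 2 := by rw [hz]; exact sub_mem hxy hyx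
  have dec : ∀ w ∈ J ^ 2, ∃ c : k, w - c • z ∈ J ^ 3 := by
    intro w hw
    obtain ⟨s, hs, t, ht, rfl⟩ := Submodule.mem_sup.1 (h2 hw)
    obtain ⟨c, rfl⟩ := Submodule.mem_span_singleton.1 hs
    exact ⟨c, by rw [add_sub_cancel_left]; exact ht⟩
  obtain ⟨α, hα⟩ := dec _ hxx
  obtain ⟨β, hβ⟩ := dec _ hxy
  obtain ⟨β', hβ'⟩ := dec _ hyx
  obtain ⟨δ, hδ⟩ := dec _ hyy
  -- if the cube contains z we are done
  by_cases hz3 : z ∈ J ^ 3
  · have h3 : J ^ 2 ≤ J ^ 3 := h2.trans (sup_le ((Submodule.span_singleton_le_iff_mem _ _).2 hz3) le_rfl)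
    have h4 := pow_bot h (m := 1) h3
    rw [eq_bot_iff]
    exact (pow_anti h (m := 1) (n := 2) (by norm_num)).trans h4.le
  have hββ : β - β' - 1 = 0 := by
    by_contra hne
    apply hz3
    have h3 : (β - β' - 1) • z ∈ J ^ 3 := by
      have h4 := sub_mem hβ' hβ
      have h5 : (β - β' - 1) • z = (y * x - β' • z) - (x * y - β • z) := by
        rw [sub_smul, sub_smul, one_smul]
        nth_rewrite 3 [hz]
        abel
      rw [h5]; exact h4
    have h4 := (J ^ 3).smul_mem (β - β' - 1)⁻¹ h3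
    rwa [smul_smul, inv_mul_cancel₀ hne, one_smul] at h4
  have hβ'' : β' = β - 1 := by linear_combination -hββ
  subst hβ''
  set π := (J ^ 4).mkQ with hπ
  have mk : ∀ w, w ∈ J ^ 4 ↔ π w = 0 := fun w => by rw [hπ, Submodule.mkQ_apply, Submodule.Quotient.mk_eq_zero]
  have q : ∀ {u v w : R} {b c : k}, u * v - b • z ∈ J ^ 3 → v * w - c • z ∈ J ^ 3 → u ∈ J → w ∈ J →
      b • π (z * w) = c • π (u * z) := by
    intro u v w b c h1 h2 hu hw
    have := (mk _).1 (eq3 h h1 h2 hu hw)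
    rw [map_sub, map_smul, map_smul, sub_eq_zero] at this
    exact this
  have e1 := q hα hα hx hx
  have e2 := q hα hβ hx hy
  have e3 := q hβ hβ' hx hx
  have e4 := q hβ hδ hx hy
  have e5 := q hβ' hα hy hx
  have e6 := q hβ' hβ hy hy
  have e7 := q hδ hβ' hy hx
  have e8 := q hδ hδ hy hy
  have cancel : ∀ {c : k} {v w : R ⧸ J ^ 4}, c ≠ 0 → c • v = c • w → v = w := fun hc h => (smul_right_inj hc).1 h
  have zero_of : ∀ {c : k} {v : R ⧸ J ^ 4}, c ≠ 0 → c • v = 0 → v = 0 := fun hc h => (smul_eq_zero.1 h).resolve_left hc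
  have L : π (x * z) = 0 ∧ π (y * z) = 0 := by
    by_cases hα0 : α = 0
    · by_cases hδ0 : δ = 0
      · subst hα0; subst hδ0
        simp only [zero_smul] at e1 e2 e3 e4 e5 e6 e7 e8
        by_cases hβ0 : β = 0
        · subst hβ0
          rw [zero_sub, neg_smul, one_smul] at e7 e3
          rw [zero_smul] at e3
          exact ⟨neg_eq_zero.1 e3.symm, neg_eq_zero.1 e7.symm⟩
        · have h3 : π (x * z) = 0 := zero_of hβ0 e2.symm
          have h4 : π (z * y) = 0 := zero_of hβ0 e4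
          rw [h4, smul_zero] at e6
          exact ⟨h3, zero_of hβ0 e6.symm⟩
      · have h3 := cancel hδ0 e8
        rw [h3, sub_smul, one_smul] at e6
        have h4 : π (y * z) = 0 := by
          have := sub_eq_iff_eq_add.1 e6
          have h5 : β • π (y * z) + 0 = β • π (y * z) + π (y * z) := by rw [add_zero]; exact this
          exact (add_left_cancel h5).symm
        rw [h3, h4, smul_zero] at e4
        exact ⟨zero_of hδ0 e4.symm, h4⟩
    · have h3 := cancel hα0 e1
      have h4 : π (x * z) = 0 := by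
        rw [h3, sub_smul, one_smul] at e3
        have h5 : β • π (x * z) - 0 = β • π (x * z) - π (x * z) := by rw [sub_zero]; exact e3
        exact (sub_right_injective h5).symm
      rw [h3, h4, smul_zero] at e5
      exact ⟨h4, zero_of hα0 e5.symm⟩
  have hxz := (mk _).2 L.1
  have hyz := (mk _).2 L.2
  have h34 : J ^ 3 ≤ J ^ 4 := by
    rw [show (3:ℕ) = 2 + 1 from rfl, pow_succ']
    refine Submodule.mul_le.2 fun s hs w hw => ?_
    obtain ⟨u, hu, s', hs', rfl⟩ := Submodule.mem_sup.1 (hg hs)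
    obtain ⟨a, b, rfl⟩ := Submodule.mem_span_pair.1 hu
    obtain ⟨c, hc⟩ := dec w hw
    have h5 : (a • x + b • y + s') * w = (a • x + b • y + s') * (w - c • z) + c • (a • (x * z) + b • (y * z) + s' * z) := by
      rw [mul_sub, mul_smul_comm, add_mul _ _ z, add_mul _ _ z, smul_mul_assoc, smul_mul_assoc]
      abel
    rw [h5]
    refine add_mem ?_ (Submodule.smul_mem _ _ (add_mem (add_mem (Submodule.smul_mem _ _ hxz) (Submodule.smul_mem _ _ hyz)) ?_))
    · rw [show (4:ℕ) = 3 + 1 from rfl, pow_succ']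
      exact Submodule.mul_mem_mul hs hc
    · rw [show (4:ℕ) = 2 + 2 from rfl, pow_add]
      exact Submodule.mul_mem_mul hs' hz2
  exact pow_bot h (m := 2) h34

theorem pow_le_cor (h : Dat j J) (m : ℕ) : J ^ (m + 1) ≤ cor k j := (pow_le h m).trans h.le

/-- the commutator space of a local symmetric algebra is zero when its codimension is at most four -/
theorem cm_bot [FiniteDimensional k R] (h : Dat j J)
    (hC : ∀ I : Submodule k R, I ≤ cor k j → (∀ a ∈ cor k j, ∀ x ∈ I, a * x ∈ I) → I ≤ cm k j → I = ⊥)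
    (hdim : finrank k (cor k j) ≤ finrank k (cm k j) + 4) : cm k j = ⊥ := by
  have hC2 := cm_le h
  by_cases h22 : J ^ 2 ≤ cm k j
  · have h1 := hC (J ^ 2) (pow_le_cor h 1) (fun a ha x hx => pow_l h 1 ha hx) h22
    rw [h1] at hC2
    exact eq_bot_iff.2 hC2
  have hlt : cm k j < J ^ 2 := lt_of_le_not_ge hC2 h22
  have hfl := Submodule.finrank_lt_finrank_of_lt hlt
  have hJ2 : J ^ 2 ≤ J := by have := pow_le h 1; exact this
  by_cases hj : j ∈ J
  · -- then j = 0
    exfalso
    apply h22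
    obtain ⟨n, hn⟩ := h.n
    have h1 : ∀ m : ℕ, j ^ (m + 1) = j := by
      intro m
      induction m with
      | zero => simp
      | succ m ih => rw [pow_succ, ih, h.jj]
    have h2 : j ∈ J ^ (n + 1) := by
      have := Submodule.pow_mem_pow J hj (n + 1)
      rwa [h1] at this
    rw [pow_succ, hn, Submodule.bot_mul, Submodule.mem_bot] at h2
    intro x hx
    have h3 := (pow_le_cor h 1) hx
    have h4 := h3.1
    rw [h2, zero_mul] at h4
    rw [← h4]; exact zero_mem _
  have hJlt : J < cor k j := lt_of_le_of_ne h.le fun h1 => hj (h1 ▸ j_mem h)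
  have hJf := Submodule.finrank_lt_finrank_of_lt hJlt
  by_cases hr : finrank k J ≤ finrank k (J ^ 2 : Submodule k R) + 1
  · obtain ⟨x, hx, hg⟩ := gen1 hJ2 hr
    exact cm_bot_of_one h hx hg
  obtain ⟨x, hx, y, hy, hg⟩ := gen2 hJ2 (by omega : finrank k J ≤ finrank k (J ^ 2 : Submodule k R) + 2)
  by_cases h3C : J ^ 3 ≤ cm k j
  · have h1 := hC (J ^ 3) (pow_le_cor h 2) (fun a ha x hx => pow_l h 2 ha hx) h3C
    apply hC (cm k j) (hC2.trans (pow_le_cor h 1)) _ le_rfl
    intro a ha c hc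
    obtain ⟨d, hd⟩ := h.d a ha
    have h2 : (a - d • j) * c ∈ J ^ 3 := by
      rw [show (3:ℕ) = 2 + 1 from rfl, pow_succ']
      exact Submodule.mul_mem_mul hd (hC2 hc)
    rw [h1, Submodule.mem_bot, sub_mul, smul_mul_assoc, ((hC2.trans (pow_le_cor h 1)) hc).1, sub_eq_zero] at h2
    rw [h2]
    exact Submodule.smul_mem _ _ hc
  · exfalso
    have h4 : cm k j < cm k j ⊔ J ^ 3 := by
      refine lt_of_le_of_ne le_sup_left fun h5 => h3C ?_
      rw [h5]; exact le_sup_right
    have h5 := Submodule.finrank_lt_finrank_of_lt h4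
    have h32 : J ^ 3 ≤ J ^ 2 := pow_anti h (m := 1) (n := 2) (by norm_num)
    have h6 : cm k j ⊔ J ^ 3 ≤ J ^ 2 := sup_le hC2 h32
    have h7 : cm k j ⊔ J ^ 3 = J ^ 2 := Submodule.eq_of_le_of_finrank_le h6 (by omega)
    have h8 : cm k j ≤ Submodule.span k {x * y - y * x} ⊔ J ^ 3 := by
      unfold cm
      rw [Submodule.span_le]
      rintro z ⟨a, ha, b, hb, rfl⟩
      obtain ⟨s, hs, t, ht, h1⟩ := comm_dec h ha hb
      rw [h1]
      obtain ⟨u, hu, s', hs', rfl⟩ := Submodule.mem_sup.1 (hg hs)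
      obtain ⟨a, b, rfl⟩ := Submodule.mem_span_pair.1 hu
      obtain ⟨v, hv, t', ht', rfl⟩ := Submodule.mem_sup.1 (hg ht)
      obtain ⟨c, d, rfl⟩ := Submodule.mem_span_pair.1 hv
      have e : (a • x + b • y + s') * (c • x + d • y + t') - (c • x + d • y + t') * (a • x + b • y + s') =
          (a * d - b * c) • (x * y - y * x) + ((a • x + b • y) * t' + s' * (c • x + d • y + t') -
            ((c • x + d • y) * s' + t' * (a • x + b • y + s'))) := by
        simp only [add_mul, mul_add, smul_mul_assoc, mul_smul_comm]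
        module
      rw [e]
      have m1 : ∀ {s t : R}, s ∈ J → t ∈ J ^ 2 → s * t ∈ J ^ 3 := by
        intro s t hs ht
        rw [show (3:ℕ) = 2 + 1 from rfl, pow_succ']; exact Submodule.mul_mem_mul hs ht
      have m2 : ∀ {s t : R}, s ∈ J ^ 2 → t ∈ J → s * t ∈ J ^ 3 := by
        intro s t hs ht
        rw [show (3:ℕ) = 2 + 1 from rfl, pow_succ]; exact Submodule.mul_mem_mul hs ht
      have hxy1 : ∀ a b : k, a • x + b • y ∈ J := fun a b => add_mem (Submodule.smul_mem _ _ hx) (Submodule.smul_mem _ _ hy)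
      exact Submodule.add_mem_sup (Submodule.smul_mem _ _ (Submodule.mem_span_singleton_self _))
        (sub_mem (add_mem (m1 (hxy1 _ _) ht') (m2 hs' ht)) (add_mem (m1 (hxy1 _ _) hs') (m2 ht' hs)))
    have h9 : J ^ 2 ≤ Submodule.span k {x * y - y * x} ⊔ J ^ 3 := by
      rw [← h7]; exact sup_le h8 le_sup_right
    have h10 := cube_bot h hx hy rfl hg h9
    apply h3C
    rw [h10]; exact bot_le

end Cfsg.Agent.H10.LocAlg
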