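import Mathlib
import Cfsg.Agent.H10_LocAlg

/-!
H10_PrimIdem: primitive idempotents of finite dimensional algebras over algebraically closed fields.
-/

set_option autoImplicit false
set_option linter.style.haveILetI false
set_option linter.unusedSectionVars false

namespace Cfsg.Agent.H10.LocAlg

open Module

variable {k : Type*} [Field k] {R : Type*} [Ring R] [Algebra k R]

theorem mem_mul_span {I : Submodule k R} {x y : R} (h : y ∈ I * Submodule.span k {x}) : ∃ t ∈ I, y = t * x := by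
  refine Submodule.mul_induction_on h (fun a ha b hb => ?_) (fun a b ha hb => ?_)
  · obtain ⟨c, rfl⟩ := Submodule.mem_span_singleton.1 hb
    exact ⟨c • a, Submodule.smul_mem _ _ ha, by rw [mul_smul_comm, smul_mul_assoc]⟩
  · obtain ⟨t, ht, rfl⟩ := ha
    obtain ⟨t', ht', rfl⟩ := hb
    exact ⟨t + t', add_mem ht ht', by rw [add_mul]⟩

/-- a nil subalgebra of a finite dimensional algebra is nilpotent -/
theorem nilp_of_nil [FiniteDimensional k R] {J : Submodule k R} (hJ : J * J ≤ J) (hn : ∀ x ∈ J, IsNilpotent x) :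
    ∃ n : ℕ, J ^ n = ⊥ := by
  classical
  have hanti : ∀ n : ℕ, J ^ (n + 2) ≤ J ^ (n + 1) := by
    intro n
    have h1 : J ^ (n + 2) = J ^ n * (J * J) := by rw [pow_add, pow_two]
    have h2 : J ^ (n + 1) = J ^ n * J := pow_succ _ _
    rw [h1, h2]
    exact mul_le_mul' le_rfl hJ
  obtain ⟨n, hmin⟩ : ∃ n : ℕ, ∀ m : ℕ, finrank k (J ^ (n + 1) : Submodule k R) ≤ finrank k (J ^ (m + 1) : Submodule k R) := by
    let S : Set ℕ := Set.range fun n : ℕ => finrank k (J ^ (n + 1) : Submodule k R)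
    obtain ⟨n, hn⟩ : sInf S ∈ S := Nat.sInf_mem ⟨_, 0, rfl⟩
    refine ⟨n, fun m => ?_⟩
    have h := Nat.sInf_le (show finrank k (J ^ (m + 1) : Submodule k R) ∈ S from ⟨m, rfl⟩)
    rw [← hn] at h
    exact h
  have hst : ∀ t : ℕ, J ^ (n + 1 + t) = J ^ (n + 1) := by
    intro t
    have h1 : J ^ (n + 1 + t) ≤ J ^ (n + 1) := by
      induction t with
      | zero => rfl
      | succ t ih =>
        refine le_trans ?_ ih
        have := hanti (n + t)
        rw [show n + t + 2 = n + 1 + (t + 1) by ring, show n + t + 1 = n + 1 + t by ring] at this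
        exact this
    have h2 := hmin (n + t)
    rw [show n + t + 1 = n + 1 + t by ring] at h2
    exact Submodule.eq_of_le_of_finrank_le h1 h2
  set I := J ^ (n + 1) with hI
  have hII : I * I = I := by
    rw [hI, ← pow_add]; exact hst (n + 1)
  have hIJ : I ≤ J := by
    have : ∀ m : ℕ, J ^ (m + 1) ≤ J := by
      intro m
      induction m with
      | zero => rw [zero_add, pow_one]
      | succ m ih => exact (hanti m).trans ih
    exact this n
  by_contra hne
  push Not at hne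
  have hI0 : I ≠ ⊥ := hne (n + 1)
  have hex : ∀ L : Submodule k R, I * L ≠ ⊥ → ∃ y ∈ L, I * Submodule.span k {y} ≠ ⊥ := by
    intro L hL
    by_contra hcon
    push Not at hcon
    apply hL
    rw [eq_bot_iff, Submodule.mul_le]
    intro a ha y hy
    rw [← hcon y hy]
    exact Submodule.mul_mem_mul ha (Submodule.mem_span_singleton_self y)
  obtain ⟨x, hx, hxmin⟩ : ∃ x : R, I * Submodule.span k {x} ≠ ⊥ ∧ ∀ y : R, I * Submodule.span k {y} ≠ ⊥ →
      finrank k (I * Submodule.span k {x} : Submodule k R) ≤ finrank k (I * Submodule.span k {y} : Submodule k R) := by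
    obtain ⟨x0, -, hx0⟩ := hex I (by rw [hII]; exact hI0)
    let S : Set ℕ := {m | ∃ x : R, I * Submodule.span k {x} ≠ ⊥ ∧ m = finrank k (I * Submodule.span k {x} : Submodule k R)}
    obtain ⟨x, hx, hm⟩ : sInf S ∈ S := Nat.sInf_mem ⟨_, x0, hx0, rfl⟩
    exact ⟨x, hx, fun y hy => by rw [← hm]; exact Nat.sInf_le ⟨y, hy, rfl⟩⟩
  have hIL : I * (I * Submodule.span k {x}) = I * Submodule.span k {x} := by rw [← mul_assoc, hII]
  obtain ⟨y, hy, hyn⟩ := hex (I * Submodule.span k {x}) (by rw [hIL]; exact hx)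
  have hle : I * Submodule.span k {y} ≤ I * Submodule.span k {x} := by
    conv_rhs => rw [← hIL]
    exact mul_le_mul' le_rfl ((Submodule.span_singleton_le_iff_mem _ _).2 hy)
  have heq := Submodule.eq_of_le_of_finrank_le hle (hxmin y hyn)
  rw [← heq] at hy
  obtain ⟨t, ht, hty⟩ := mem_mul_span hy
  obtain ⟨m, hm⟩ := hn t (hIJ ht)
  have h1 : ∀ i : ℕ, y = t ^ i * y := by
    intro i
    induction i with
    | zero => simp
    | succ i ih => rw [pow_succ, mul_assoc, ← hty]; exact ih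
  apply hyn
  have h2 := h1 m
  rw [hm, zero_mul] at h2
  rw [h2]
  simp

variable {j : R}

theorem pow_inv_eq {y a : R} (hj : j * j = j) (hy : y ∈ cor k j) (ha : a ∈ cor k j) (h : y * a = j) (m : ℕ) :
    y ^ (m + 1) * a ^ (m + 1) = j := by
  induction m with
  | zero => simpa using h
  | succ m ih =>
    rw [pow_succ' y, pow_succ a, mul_assoc, ← mul_assoc (y ^ (m + 1)), ih, ← mul_assoc, hy.2, h]

theorem not_nilp_of_inv (hj : j * j = j) (hj0 : j ≠ 0) {y a : R} (hy : y ∈ cor k j) (ha : a ∈ cor k j) (h : y * a = j) :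
    ¬ IsNilpotent y ∧ ¬ IsNilpotent a := by
  constructor
  · rintro ⟨m, hm⟩
    have h1 := pow_inv_eq hj hy ha h m
    rw [pow_succ, hm, zero_mul, zero_mul] at h1
    exact hj0 h1.symm
  · rintro ⟨m, hm⟩
    have h1 := pow_inv_eq hj hy ha h m
    rw [pow_succ a, hm, zero_mul, mul_zero] at h1
    exact hj0 h1.symm

/-- Fitting -/
theorem fitting [FiniteDimensional k R] (hj : j * j = j) (hp : ∀ i ∈ cor k j, i * i = i → i = 0 ∨ i = j)
    {a : R} (ha : a ∈ cor k j) : IsNilpotent a ∨ ∃ b ∈ cor k j, a * b = j := by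
  obtain ⟨n, hn⟩ := ((LinearMap.eventually_isCompl_ker_pow_range_pow (LinearMap.mulLeft k a)).and
    (Filter.eventually_ge_atTop 1)).exists
  obtain ⟨hc, hn1⟩ := hn
  obtain ⟨n, rfl⟩ := Nat.exists_eq_add_of_le' hn1
  have hL : ∀ x : R, ((LinearMap.mulLeft k a) ^ (n + 1)) x = a ^ (n + 1) * x := by
    intro x
    rw [LinearMap.pow_mulLeft]; rfl
  have haj : a ^ (n + 1) * j = a ^ (n + 1) := by rw [pow_succ, mul_assoc, ha.2]
  have hja : j * a ^ (n + 1) = a ^ (n + 1) := by rw [pow_succ', ← mul_assoc, ha.1]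
  obtain ⟨e, he, e', he', hee⟩ := Submodule.mem_sup.1 (show j ∈ LinearMap.ker ((LinearMap.mulLeft k a) ^ (n + 1)) ⊔
    LinearMap.range ((LinearMap.mulLeft k a) ^ (n + 1)) by rw [hc.sup_eq_top]; trivial)
  have huniq : ∀ x ∈ LinearMap.ker ((LinearMap.mulLeft k a) ^ (n + 1)),
      x ∈ LinearMap.range ((LinearMap.mulLeft k a) ^ (n + 1)) → x = 0 := by
    intro x h1 h2
    have := hc.disjoint.le_bot (Submodule.mem_inf.2 ⟨h1, h2⟩)
    exact (Submodule.mem_bot k).1 this
  have hker : ∀ {x : R}, x ∈ LinearMap.ker ((LinearMap.mulLeft k a) ^ (n + 1)) ↔ a ^ (n + 1) * x = 0 := by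
    intro x; rw [LinearMap.mem_ker, hL]
  obtain ⟨r, hr⟩ := he'
  rw [hL] at hr
  have hran : ∀ x : R, a ^ (n + 1) * x ∈ LinearMap.range ((LinearMap.mulLeft k a) ^ (n + 1)) :=
    fun x => ⟨x, hL x⟩
  have he0 := hker.1 he
  -- e in the corner
  have hje : j * e = e := by
    have h1 : j * e + e' = e + e' := by
      have h2 : j * (e + e') = e + e' := by rw [hee, hj]
      have h3 : j * e' = e' := by rw [← hr, ← mul_assoc, hja]
      rw [mul_add, h3] at h2
      exact h2
    exact add_right_cancel h1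
  have hej : e * j = e := by
    have h1 : e - e * j = e' * j - e' := by
      have h2 : (e + e') * j = e + e' := by rw [hee, hj]
      rw [add_mul] at h2
      rw [sub_eq_sub_iff_add_eq_add, ← h2]; abel
    have h3 : e - e * j ∈ LinearMap.ker ((LinearMap.mulLeft k a) ^ (n + 1)) := by
      rw [hker, mul_sub, ← mul_assoc, he0, zero_mul, sub_zero]
    have h4 : e - e * j ∈ LinearMap.range ((LinearMap.mulLeft k a) ^ (n + 1)) := by
      rw [h1, ← hr, mul_assoc, ← mul_sub]; exact hran _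
    exact (sub_eq_zero.1 (huniq _ h3 h4)).symm
  have hee' : e * e = e := by
    have h1 : e - e * e = e' * e := by
      have h2 : (e + e') * e = e := by rw [hee, hje]
      rw [add_mul] at h2
      rw [sub_eq_iff_eq_add, add_comm, h2]
    have h3 : e - e * e ∈ LinearMap.ker ((LinearMap.mulLeft k a) ^ (n + 1)) := by
      rw [hker, mul_sub, ← mul_assoc, he0, zero_mul, sub_zero]
    have h4 : e - e * e ∈ LinearMap.range ((LinearMap.mulLeft k a) ^ (n + 1)) := by
      rw [h1, ← hr, mul_assoc]; exact hran _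
    exact (sub_eq_zero.1 (huniq _ h3 h4)).symm
  rcases hp e ⟨hje, hej⟩ hee' with h0 | h0
  · right
    refine ⟨j * (a ^ n * r) * j, ⟨?_, ?_⟩, ?_⟩
    · rw [← mul_assoc, ← mul_assoc, hj]
    · rw [mul_assoc, hj]
    · have h1 : a * (j * (a ^ n * r) * j) = (a ^ (n + 1) * r) * j := by
        rw [← mul_assoc, ← mul_assoc, ha.2, ← mul_assoc, pow_succ']
      rw [h1, hr]
      have h2 : e' = j := by rw [← hee, h0, zero_add]
      rw [h2, hj]
  · left
    refine ⟨n + 1, ?_⟩
    rw [h0, haj] at he0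
    exact he0

theorem two_sided [FiniteDimensional k R] (hj : j * j = j) (hj0 : j ≠ 0) (hp : ∀ i ∈ cor k j, i * i = i → i = 0 ∨ i = j)
    {a b : R} (ha : a ∈ cor k j) (hb : b ∈ cor k j) (h : a * b = j) : b * a = j := by
  rcases fitting hj hp hb with h1 | ⟨c, hc, h2⟩
  · exact absurd h1 (not_nilp_of_inv hj hj0 ha hb h).2
  · have h3 : a = c := by
      calc a = a * (b * c) := by rw [h2, ha.2]
        _ = c := by rw [← mul_assoc, h, hc.1]
    rw [h3]; exact h2

/-- locality of the corner of a primitive idempotent -/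
theorem exists_dat [FiniteDimensional k R] [IsAlgClosed k] (hj : j * j = j) (hj0 : j ≠ 0)
    (hp : ∀ i ∈ cor k j, i * i = i → i = 0 ∨ i = j) : ∃ J : Submodule k R, Dat j J := by
  have hl : ∀ x ∈ cor k j, ∀ a ∈ cor k j, IsNilpotent a → IsNilpotent (x * a) := by
    intro x hx a ha hn
    rcases fitting hj hp (cor_mul hx ha) with h | ⟨c, hc, h⟩
    · exact h
    · have h1 := two_sided hj hj0 hp (cor_mul hx ha) hc h
      rw [← mul_assoc] at h1
      exact absurd hn (not_nilp_of_inv hj hj0 (cor_mul hc hx) ha h1).2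
  have hr : ∀ x ∈ cor k j, ∀ a ∈ cor k j, IsNilpotent a → IsNilpotent (a * x) := by
    intro x hx a ha hn
    rcases fitting hj hp (cor_mul ha hx) with h | ⟨c, hc, h⟩
    · exact h
    · rw [mul_assoc] at h
      exact absurd hn (not_nilp_of_inv hj hj0 ha (cor_mul hx hc) h).1
  have hadd : ∀ a ∈ cor k j, ∀ b ∈ cor k j, IsNilpotent a → IsNilpotent b → IsNilpotent (a + b) := by
    intro a ha b hb hna hnb
    rcases fitting hj hp (add_mem ha hb) with h | ⟨c, hc, h⟩
    · exact h
    · exfalso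
      have h1 := hr c hc a ha hna
      have h2 := hr c hc b hb hnb
      have h3 : b * c = j - a * c := by rw [← h, add_mul]; abel
      have h4 : Commute (a * c) (b * c) := by
        rw [h3]
        show a * c * (j - a * c) = (j - a * c) * (a * c)
        have h5 := cor_mul ha hc
        rw [mul_sub, sub_mul, h5.2, h5.1]
      have h5 := h4.isNilpotent_add h1 h2
      rw [← add_mul, h] at h5
      exact (not_nilp_of_inv (k := k) hj hj0 ⟨hj, hj⟩ ⟨hj, hj⟩ hj).1 h5
  let N : Submodule k R :=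
    { carrier := {a | a ∈ cor k j ∧ IsNilpotent a}
      zero_mem' := ⟨zero_mem _, IsNilpotent.zero⟩
      add_mem' := fun ha hb => ⟨add_mem ha.1 hb.1, hadd _ ha.1 _ hb.1 ha.2 hb.2⟩
      smul_mem' := fun c a ha => ⟨Submodule.smul_mem _ _ ha.1, ha.2.smul c⟩ }
  have hmem : ∀ a, a ∈ N ↔ a ∈ cor k j ∧ IsNilpotent a := fun a => Iff.rfl
  refine ⟨N, hj, fun a ha => ha.1, fun a ha x hx => ⟨cor_mul ha hx.1, hl a ha x hx.1 hx.2⟩,
    fun a ha x hx => ⟨cor_mul hx.1 ha, hr a ha x hx.1 hx.2⟩, ?_, ?_⟩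
  · intro a ha
    haveI : Nontrivial (cor k j) := ⟨⟨⟨j, hj, hj⟩, 0, fun h => hj0 (congrArg Subtype.val h)⟩⟩
    let L : cor k j →ₗ[k] cor k j :=
      { toFun := fun x => ⟨a * x, cor_mul ha x.2⟩
        map_add' := fun x y => Subtype.ext (mul_add _ _ _)
        map_smul' := fun c x => Subtype.ext (mul_smul_comm _ _ _) }
    obtain ⟨c, hc⟩ := Module.End.exists_eigenvalue L
    obtain ⟨v, hv⟩ := hc.exists_hasEigenvector
    refine ⟨c, sub_mem ha (Submodule.smul_mem _ _ ⟨hj, hj⟩), ?_⟩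
    have hm : a - c • j ∈ cor k j := sub_mem ha (Submodule.smul_mem _ _ ⟨hj, hj⟩)
    rcases fitting hj hp hm with h | ⟨b, hb, h⟩
    · exact h
    · exfalso
      have h1 := two_sided hj hj0 hp hm hb h
      have h2 : a * (v : R) = c • (v : R) := congrArg Subtype.val hv.apply_eq_smul
      have h3 : (a - c • j) * (v : R) = 0 := by
        rw [sub_mul, smul_mul_assoc, v.2.1, h2, sub_self]
      apply hv.2
      apply Subtype.ext
      calc (v : R) = (b * (a - c • j)) * v := by rw [h1, v.2.1]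
        _ = 0 := by rw [mul_assoc, h3, mul_zero]
  · exact nilp_of_nil (Submodule.mul_le.2 fun a ha b hb => ⟨cor_mul ha.1 hb.1, hl a ha.1 b hb.1 hb.2⟩) fun x hx => hx.2

/-- existence of primitive idempotents below a nonzero idempotent -/
theorem exists_prim [FiniteDimensional k R] {f : R} (hf : f * f = f) (hf0 : f ≠ 0) :
    ∃ j ∈ cor k f, j * j = j ∧ j ≠ 0 ∧ ∀ i ∈ cor k j, i * i = i → i = 0 ∨ i = j := by
  let S : Set ℕ := {m | ∃ j ∈ cor k f, j * j = j ∧ j ≠ 0 ∧ m = finrank k (cor k j)}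
  obtain ⟨j, hj, hjj, hj0, hm⟩ : sInf S ∈ S := Nat.sInf_mem ⟨_, f, ⟨hf, hf⟩, hf, hf0, rfl⟩
  refine ⟨j, hj, hjj, hj0, fun i hi hii => ?_⟩
  by_cases hi0 : i = 0
  · exact Or.inl hi0
  right
  have h1 : finrank k (cor k j) ≤ finrank k (cor k i) := by
    rw [← hm]
    apply Nat.sInf_le
    refine ⟨i, ⟨?_, ?_⟩, hii, hi0, rfl⟩
    · rw [← hi.1, ← mul_assoc, hj.1]
    · rw [← hi.2, mul_assoc, hj.2]
  have h2 : cor k i ≤ cor k j := by
    intro x hx
    refine ⟨?_, ?_⟩
    · rw [← hx.1, ← mul_assoc, hi.1]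
    · rw [← hx.2, mul_assoc, hi.2]
  have h3 := Submodule.eq_of_le_of_finrank_le h2 h1
  have h4 : j ∈ cor k i := by rw [h3]; exact ⟨hjj, hjj⟩
  rw [← h4.1, hi.2]

end Cfsg.Agent.H10.LocAlg
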