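import Mathlib
import Cfsg.Agent.H10_PrimIdem

/-!
H10_TrFun: trace functions of a full corner extend to the block algebra.
-/

set_option autoImplicit false
set_option linter.style.haveILetI false
set_option linter.unusedSectionVars false

namespace Cfsg.Agent.H10.LocAlg

open Module

variable {k : Type*} [Field k] {R : Type*} [Ring R] [Algebra k R]

/-- the two-sided ideal generated by an element -/
def two (k : Type*) [Field k] {R : Type*} [Ring R] [Algebra k R] (j : R) : Submodule k R :=
  Submodule.span k (Set.range fun xy : R × R => xy.1 * j * xy.2)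

theorem two_l {j : R} {z : R} (hz : z ∈ two k j) (r : R) : r * z ∈ two k j := by
  unfold two at hz ⊢
  refine Submodule.span_induction (p := fun z _ => r * z ∈ _) ?_ ?_ ?_ ?_ hz
  · rintro _ ⟨⟨x, y⟩, rfl⟩
    apply Submodule.subset_span
    exact ⟨(r * x, y), by simp only [mul_assoc]⟩
  · rw [mul_zero]; exact zero_mem _
  · intro a b _ _ h1 h2; rw [mul_add]; exact add_mem h1 h2
  · intro c a _ h1; rw [mul_smul_comm]; exact Submodule.smul_mem _ _ h1

theorem two_r {j : R} {z : R} (hz : z ∈ two k j) (r : R) : z * r ∈ two k j := by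
  unfold two at hz ⊢
  refine Submodule.span_induction (p := fun z _ => z * r ∈ _) ?_ ?_ ?_ ?_ hz
  · rintro _ ⟨⟨x, y⟩, rfl⟩
    apply Submodule.subset_span
    exact ⟨(x, y * r), by simp only [mul_assoc]⟩
  · rw [zero_mul]; exact zero_mem _
  · intro a b _ _ h1 h2; rw [add_mul]; exact add_mem h1 h2
  · intro c a _ h1; rw [smul_mul_assoc]; exact Submodule.smul_mem _ _ h1

theorem two_self (j : R) : j ∈ two k j := by
  unfold two
  exact Submodule.subset_span ⟨(1, 1), by simp⟩

theorem two_sum {j f : R} (h : f ∈ two k j) : ∃ (s : Finset (R × R)) (x : R × R → R), f = ∑ i ∈ s, x i * j * i.2 := by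
  unfold two at h
  obtain ⟨c, hc⟩ := Finsupp.mem_span_range_iff_exists_finsupp.1 h
  refine ⟨c.support, fun i => c i • i.1, ?_⟩
  rw [← hc, Finsupp.sum]
  refine Finset.sum_congr rfl fun i _ => ?_
  rw [smul_mul_assoc, smul_mul_assoc]

/-- no ideals in the commutator space -/
theorem no_ideal {j : R} (hj : j * j = j) (τ : R →ₗ[k] k) (hτ : ∀ a b, τ (a * b) = τ (b * a))
    (hnd : ∀ x, (∀ y, τ (x * y) = 0) → x = 0) (I : Submodule k R) (hI : I ≤ cor k j)
    (hl : ∀ a ∈ cor k j, ∀ x ∈ I, a * x ∈ I) (hc : I ≤ cm k j) : I = ⊥ := by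
  have h0 : ∀ z ∈ cm k j, τ z = 0 := by
    intro z hz
    unfold cm at hz
    refine Submodule.span_induction (p := fun z _ => τ z = 0) ?_ (map_zero _) ?_ ?_ hz
    · rintro _ ⟨a, _, b, _, rfl⟩
      rw [map_sub, hτ, sub_self]
    · intro a b _ _ h1 h2; rw [map_add, h1, h2, add_zero]
    · intro c a _ h1; rw [map_smul, h1, smul_zero]
  rw [eq_bot_iff]
  intro x hx
  rw [Submodule.mem_bot]
  apply hnd
  intro y
  have h1 : j * y * j ∈ cor k j := ⟨by rw [← mul_assoc, ← mul_assoc, hj], by rw [mul_assoc, hj]⟩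
  have h2 := h0 _ (hc (hl _ h1 x hx))
  have h3 := hI hx
  rw [mul_assoc, h3.1, hτ, ← mul_assoc, h3.2] at h2
  exact h2

/-- the space of trace functions of the block algebra -/
def TF (k : Type*) [Field k] {R : Type*} [Ring R] [Algebra k R] (f : R) : Submodule k (Dual k R) where
  carrier := {θ | (∀ a b, θ (a * b) = θ (b * a)) ∧ ∀ a, θ (a * f) = θ a}
  zero_mem' := by simp
  add_mem' := by
    rintro a b ⟨h1, h2⟩ ⟨h3, h4⟩
    exact ⟨fun x y => by rw [LinearMap.add_apply, LinearMap.add_apply, h1, h3], fun x => by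
      rw [LinearMap.add_apply, LinearMap.add_apply, h2, h4]⟩
  smul_mem' := by
    rintro c a ⟨h1, h2⟩
    exact ⟨fun x y => by rw [LinearMap.smul_apply, LinearMap.smul_apply, h1], fun x => by
      rw [LinearMap.smul_apply, LinearMap.smul_apply, h2]⟩

theorem ext_trace {j f : R} (hj : j * j = j) (hfc : ∀ a, a * f = f * a) (hff : f * f = f) (hjf : j ∈ cor k f)
    (hf : f ∈ two k j) (lam : R →ₗ[k] k) (hlam : ∀ z ∈ cm k j, lam z = 0) :
    ∃ θ ∈ TF k f, ∀ a ∈ cor k j, θ a = lam a := by
  obtain ⟨s, x, hs⟩ := two_sum hf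
  have hsw : ∀ a ∈ cor k j, ∀ b ∈ cor k j, lam (a * b) = lam (b * a) := by
    intro a ha b hb
    have := hlam (a * b - b * a) (Submodule.subset_span ⟨a, ha, b, hb, rfl⟩)
    rwa [map_sub, sub_eq_zero] at this
  have hjc : ∀ y, j * y * j ∈ cor k j := fun y =>
    ⟨by rw [← mul_assoc, ← mul_assoc, hj], by rw [mul_assoc, hj]⟩
  let θ : R →ₗ[k] k := ∑ i ∈ s, lam.comp ((LinearMap.mulLeft k (j * i.2)).comp (LinearMap.mulRight k (x i * j)))
  have hθ : ∀ b, θ b = ∑ i ∈ s, lam (j * (i.2 * b * x i) * j) := by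
    intro b
    show (∑ i ∈ s, lam.comp ((LinearMap.mulLeft k (j * i.2)).comp (LinearMap.mulRight k (x i * j)))) b = _
    rw [LinearMap.sum_apply]
    refine Finset.sum_congr rfl fun i _ => ?_
    rw [LinearMap.comp_apply, LinearMap.comp_apply, LinearMap.mulLeft_apply, LinearMap.mulRight_apply]
    congr 1
    simp only [mul_assoc]
  have hins : ∀ a b, j * (a * b) * j = ∑ l ∈ s, (j * (a * x l) * j) * (j * (l.2 * b) * j) := by
    intro a b
    have h1 : j * (a * b) * j = j * (a * f * b) * j := by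
      calc j * (a * b) * j = (j * f) * (a * b) * j := by rw [hjf.2]
        _ = j * (f * a * b) * j := by simp only [mul_assoc]
        _ = j * (a * f * b) * j := by rw [← hfc a]
    rw [h1]
    conv_lhs => rw [hs]
    rw [Finset.mul_sum, Finset.sum_mul, Finset.mul_sum, Finset.sum_mul]
    refine Finset.sum_congr rfl fun l _ => ?_
    have h2 : ∀ u v : R, u * j * (j * v) = u * j * v := by intro u v; rw [← mul_assoc, mul_assoc u j j, hj]
    calc j * (a * (x l * j * l.2) * b) * j = (j * (a * x l)) * j * (l.2 * b * j) := by simp only [mul_assoc]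
      _ = (j * (a * x l)) * j * (j * (l.2 * b * j)) := (h2 _ _).symm
      _ = _ := by simp only [mul_assoc]
  refine ⟨θ, ⟨fun a b => ?_, fun a => ?_⟩, fun a ha => ?_⟩
  · rw [hθ, hθ]
    have e1 : ∀ i ∈ s, lam (j * (i.2 * (a * b) * x i) * j) =
        ∑ l ∈ s, lam ((j * (i.2 * a * x l) * j) * (j * (l.2 * (b * x i)) * j)) := by
      intro i _
      have : i.2 * (a * b) * x i = (i.2 * a) * (b * x i) := by simp only [mul_assoc]
      rw [this, hins, map_sum]
    have e2 : ∀ i ∈ s, lam (j * (i.2 * (b * a) * x i) * j) =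
        ∑ l ∈ s, lam ((j * (i.2 * b * x l) * j) * (j * (l.2 * (a * x i)) * j)) := by
      intro i _
      have : i.2 * (b * a) * x i = (i.2 * b) * (a * x i) := by simp only [mul_assoc]
      rw [this, hins, map_sum]
    rw [Finset.sum_congr rfl e1, Finset.sum_congr rfl e2, Finset.sum_comm]
    refine Finset.sum_congr rfl fun i _ => Finset.sum_congr rfl fun l _ => ?_
    rw [hsw _ (hjc _) _ (hjc _)]
    simp only [mul_assoc]
  · rw [hθ, hθ]
    refine Finset.sum_congr rfl fun i _ => ?_
    congr 1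
    calc j * (i.2 * (a * f) * x i) * j = j * (i.2 * a * (f * x i)) * j := by simp only [mul_assoc]
      _ = j * (i.2 * a * (x i * f)) * j := by rw [hfc (x i)]
      _ = j * (i.2 * a * x i) * (f * j) := by simp only [mul_assoc]
      _ = _ := by rw [hjf.1]
  · rw [hθ]
    have e1 : ∀ i ∈ s, lam (j * (i.2 * a * x i) * j) = lam (a * (j * (x i * j * i.2) * j)) := by
      intro i _
      have h2 : j * (i.2 * a * x i) * j = (j * i.2 * j) * (a * (j * x i * j)) := by
        have h3 : a = j * a * j := by rw [ha.1, ha.2]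
        calc j * (i.2 * a * x i) * j = j * (i.2 * (j * a * j) * x i) * j := by rw [← h3]
          _ = (j * i.2 * j) * (a * (j * x i * j)) := by simp only [mul_assoc]
      rw [h2, hsw _ (hjc _) _ (cor_mul ha (hjc _))]
      congr 1
      have h2 : ∀ u v : R, u * j * (j * v) = u * j * v := by intro u v; rw [← mul_assoc, mul_assoc u j j, hj]
      calc a * (j * x i * j) * (j * i.2 * j) = (a * (j * x i)) * j * (j * (i.2 * j)) := by simp only [mul_assoc]
        _ = (a * (j * x i)) * j * (i.2 * j) := h2 _ _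
        _ = _ := by simp only [mul_assoc]
    rw [Finset.sum_congr rfl e1, ← map_sum, ← Finset.mul_sum]
    congr 1
    have h4 : ∑ i ∈ s, j * (x i * j * i.2) * j = j * f * j := by
      conv_rhs => rw [hs]
      rw [Finset.mul_sum, Finset.sum_mul]
    rw [h4, hjf.2, hj, ha.2]

theorem finrank_cor_le [FiniteDimensional k R] {j f : R} (hj : j * j = j) (hfc : ∀ a, a * f = f * a) (hff : f * f = f)
    (hjf : j ∈ cor k f) (hf : f ∈ two k j) :
    finrank k (cor k j) ≤ finrank k (cm k j) + finrank k (TF k f) := by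
  have hcc : cm k j ≤ cor k j := by
    unfold cm
    rw [Submodule.span_le]
    rintro _ ⟨a, ha, b, hb, rfl⟩
    exact sub_mem (cor_mul ha hb) (cor_mul hb ha)
  set C : Submodule k (cor k j) := (cm k j).comap (cor k j).subtype with hC
  have h1 : finrank k C = finrank k (cm k j) := by
    have e : C.map (cor k j).subtype = cm k j := by
      rw [hC, Submodule.map_comap_eq, Submodule.range_subtype, inf_eq_right]
      exact hcc
    rw [← e]
    exact (LinearEquiv.finrank_eq (Submodule.equivMapOfInjective _ (Submodule.injective_subtype _) _))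
  have h2 := Subspace.finrank_add_finrank_dualAnnihilator_eq C
  let ρ : TF k f →ₗ[k] Dual k (cor k j) := (cor k j).subtype.dualMap.comp (TF k f).subtype
  have h3 : C.dualAnnihilator ≤ LinearMap.range ρ := by
    intro φ hφ
    rw [Submodule.mem_dualAnnihilator] at hφ
    let c : R →ₗ[k] cor k j :=
      { toFun := fun y => ⟨j * y * j, ⟨by rw [← mul_assoc, ← mul_assoc, hj], by rw [mul_assoc, hj]⟩⟩
        map_add' := fun x y => Subtype.ext (by simp [mul_add, add_mul])
        map_smul' := fun a x => Subtype.ext (by simp) }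
    have hc : ∀ a (ha : a ∈ cor k j), c a = ⟨a, ha⟩ := by
      intro a ha
      apply Subtype.ext
      show j * a * j = a
      rw [ha.1, ha.2]
    obtain ⟨θ, hθ, hθ'⟩ := ext_trace hj hfc hff hjf hf (φ.comp c) (by
      intro z hz
      rw [LinearMap.comp_apply, hc z (hcc hz)]
      exact hφ _ hz)
    refine ⟨⟨θ, hθ⟩, ?_⟩
    ext a
    show θ (a : R) = φ a
    rw [hθ' a a.2, LinearMap.comp_apply, hc a a.2]
  have h4 := Submodule.finrank_mono h3
  have h5 := LinearMap.finrank_range_le ρ
  omega

end Cfsg.Agent.H10.LocAlg
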