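import Mathlib
import Cfsg.Agent.H10_TrFun
import Cfsg.Agent.H9_BrMod5

/-!
H10_SimpTr: if a primitive idempotent is not full in its block then the block has two simple modules.
-/

set_option autoImplicit false
set_option linter.style.haveILetI false
set_option linter.unusedSectionVars false

namespace Cfsg.Agent.H10.LocAlg

open Module Cfsg.Agent.H10.RegPart

section gen

variable {k : Type*} [Field k] {R : Type*} [Ring R] [Algebra k R]

/-- data of a simple quotient module -/
theorem exists_simple_pair {j f : R} (hj : j * j = j) (hj0 : j ≠ 0) (hfc : ∀ a, a * f = f * a) (hff : f * f = f)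
    (hjf : j ∈ cor k f) (hf : f ∉ two k j) : ∃ I : Fin 2 → Ideal R, (∀ i, IsSimpleModule R (R ⧸ I i)) ∧
      (∀ i (s : R ⧸ I i), f • s = s) ∧ (∀ i i', i ≠ i' → IsEmpty ((R ⧸ I i) ≃ₗ[R] (R ⧸ I i'))) := by
  -- the first ideal
  let K0 : Ideal R :=
    { carrier := {a | a * f ∈ two k j}
      zero_mem' := by rw [Set.mem_setOf_eq, zero_mul]; exact zero_mem _
      add_mem' := fun ha hb => by
        rw [Set.mem_setOf_eq] at ha hb ⊢
        rw [add_mul]; exact add_mem ha hb
      smul_mem' := fun c a ha => by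
        rw [Set.mem_setOf_eq] at ha ⊢
        rw [smul_eq_mul, mul_assoc]; exact two_l ha c }
  have hK0 : ∀ a, a ∈ K0 ↔ a * f ∈ two k j := fun a => Iff.rfl
  have hK0t : K0 ≠ ⊤ := by
    intro h
    apply hf
    have h1 : (1 : R) ∈ K0 := by rw [h]; trivial
    rw [hK0, one_mul] at h1
    exact h1
  obtain ⟨I0, hI0, hle0⟩ := Ideal.exists_le_maximal K0 hK0t
  let K1 : Ideal R :=
    { carrier := {a | a * j = 0}
      zero_mem' := by rw [Set.mem_setOf_eq, zero_mul]
      add_mem' := fun ha hb => by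
        rw [Set.mem_setOf_eq] at ha hb ⊢
        rw [add_mul, ha, hb, add_zero]
      smul_mem' := fun c a ha => by
        rw [Set.mem_setOf_eq] at ha ⊢
        rw [smul_eq_mul, mul_assoc, ha, mul_zero] }
  have hK1t : K1 ≠ ⊤ := by
    intro h
    have h1 : (1 : R) ∈ K1 := by rw [h]; trivial
    have h2 : (1 : R) * j = 0 := h1
    rw [one_mul] at h2
    exact hj0 h2
  obtain ⟨I1, hI1, hle1⟩ := Ideal.exists_le_maximal K1 hK1t
  have hs : ∀ I : Ideal R, I.IsMaximal → IsSimpleModule R (R ⧸ I) := by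
    intro I hI
    exact isSimpleModule_iff_isCoatom.2 (Ideal.isMaximal_def.1 hI)
  have hj1 : (1 : R) - j ∈ I1 := hle1 (show (1 - j) * j = 0 by rw [sub_mul, one_mul, hj, sub_self])
  have hjn1 : j ∉ I1 := by
    intro h
    apply hI1.ne_top
    rw [Ideal.eq_top_iff_one]
    have := add_mem hj1 h
    rwa [sub_add_cancel] at this
  have hfid : ∀ I : Ideal R, (1 : R) - f ∈ I → ∀ s : R ⧸ I, f • s = s := by
    intro I hI s
    obtain ⟨r, rfl⟩ := Submodule.Quotient.mk_surjective I s
    rw [← Submodule.Quotient.mk_smul, Submodule.Quotient.eq, smul_eq_mul, ← hfc, ← neg_sub, ← mul_one_sub]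
    exact neg_mem (I.mul_mem_left _ hI)
  have hf0 : (1 : R) - f ∈ I0 := hle0 (show (1 - f) * f ∈ two k j by
    rw [sub_mul, one_mul, hff, sub_self]; exact zero_mem _)
  have hf1 : (1 : R) - f ∈ I1 := by
    apply hle1
    show (1 - f) * j = 0
    rw [sub_mul, one_mul, hjf.1, sub_self]
  have hj0' : ∀ s : R ⧸ I0, j • s = 0 := by
    intro s
    obtain ⟨r, rfl⟩ := Submodule.Quotient.mk_surjective I0 s
    rw [← Submodule.Quotient.mk_smul, Submodule.Quotient.mk_eq_zero]
    apply hle0
    show j * r * f ∈ two k j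
    exact two_r (two_r (two_self j) r) f
  have hj1' : j • (Submodule.Quotient.mk 1 : R ⧸ I1) ≠ 0 := by
    rw [← Submodule.Quotient.mk_smul, Ne, Submodule.Quotient.mk_eq_zero, smul_eq_mul, mul_one]
    exact hjn1
  have he : IsEmpty ((R ⧸ I0) ≃ₗ[R] (R ⧸ I1)) := by
    refine ⟨fun e => hj1' ?_⟩
    have h1 := hj0' (e.symm (Submodule.Quotient.mk 1))
    have h2 := congrArg e h1
    rw [map_smul, e.apply_symm_apply, map_zero] at h2
    exact h2
  refine ⟨![I0, I1], ?_, ?_, ?_⟩
  · intro i
    fin_cases i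
    · exact hs I0 hI0
    · exact hs I1 hI1
  · intro i
    fin_cases i
    · exact hfid I0 hf0
    · exact hfid I1 hf1
  · intro i i' h
    fin_cases i <;> fin_cases i'
    · exact absurd rfl h
    · exact he
    · exact ⟨fun e => he.false e.symm⟩
    · exact absurd rfl h

end gen

section trs

variable (k : Type*) [Field k] {R : Type*} [Ring R] [Algebra k R]
  (S : Type*) [AddCommGroup S] [Module R S] [Module k S] [IsScalarTower k R S]

/-- the trace function of a module -/
noncomputable def trS : R →ₗ[k] k := (LinearMap.trace k S).comp (Algebra.lsmul k k S : R →ₐ[k] _).toLinearMap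

theorem trS_apply (a : R) : trS k S a = LinearMap.trace k S (Algebra.lsmul k k S a) := rfl

theorem trS_comm (a b : R) : trS k S (a * b) = trS k S (b * a) := by
  rw [trS_apply, trS_apply, map_mul (Algebra.lsmul k k S), map_mul (Algebra.lsmul k k S), LinearMap.trace_mul_comm]

theorem trS_f {f : R} (hf : ∀ s : S, f • s = s) (a : R) : trS k S (a * f) = trS k S a := by
  rw [trS_apply, trS_apply]
  congr 1
  ext s
  show (a * f) • s = a • s
  rw [mul_smul, hf]

theorem trS_ppr {G : Type*} [Group G] [Fintype G] (S : Type*) [AddCommGroup S] [Module (MonoidAlgebra k G) S]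
    [Module k S] [IsScalarTower k (MonoidAlgebra k G) S] [FiniteDimensional k S]
    {p : ℕ} [hp : Fact p.Prime] [CharP k p] (g : G) :
    trS k S (MonoidAlgebra.single g 1 : MonoidAlgebra k G) = trS k S (MonoidAlgebra.single (ppr p g) 1 : MonoidAlgebra k G) :=
  Cfsg.Agent.H9.BrMod5.trace_ppr (p := p)
    (((Algebra.lsmul k k S : MonoidAlgebra k G →ₐ[k] Module.End k S) : MonoidAlgebra k G →* Module.End k S).comp
        (MonoidAlgebra.of k G)) g

end trs

variable {k : Type*} [Field k] {G : Type*} [Group G] [Fintype G]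

theorem exists_traces {p : ℕ} [hp : Fact p.Prime] [CharP k p] [IsAlgClosed k] {j f : MonoidAlgebra k G}
    (hj : j * j = j) (hj0 : j ≠ 0) (hfc : ∀ a, a * f = f * a) (hff : f * f = f)
    (hjf : j ∈ cor k f) (hf : f ∉ two k j) : ∃ T : Fin 2 → (MonoidAlgebra k G →ₗ[k] k),
      (∀ i a b, T i (a * b) = T i (b * a)) ∧ (∀ i a, T i (a * f) = T i a) ∧
      (∀ i (g : G), T i (MonoidAlgebra.single g 1) = T i (MonoidAlgebra.single (ppr p g) 1)) ∧
      (∀ c : Fin 2 → k, (∀ a, ∑ i, c i * T i a = 0) → ∀ i, c i = 0) := by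
  obtain ⟨I, hI, hfI, hne⟩ := exists_simple_pair (k := k) hj hj0 hfc hff hjf hf
  haveI hfd0 : FiniteDimensional k (MonoidAlgebra k G) := inferInstance
  haveI hfd : ∀ i, FiniteDimensional k (MonoidAlgebra k G ⧸ I i) := by
    intro i
    exact Module.Finite.of_surjective ((Submodule.mkQ (I i)).restrictScalars k) (Submodule.mkQ_surjective _)
  refine ⟨fun i => trS k (MonoidAlgebra k G ⧸ I i), fun i a b => trS_comm k _ a b, fun i a => trS_f k _ (hfI i) a,
    fun i g => trS_ppr k (MonoidAlgebra k G ⧸ I i) g, fun c hc => ?_⟩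
  exact Cfsg.Agent.H9.BrMod3.trace_indep (k := k) (A := MonoidAlgebra k G) (fun i => MonoidAlgebra k G ⧸ I i)
    hne c hc

end Cfsg.Agent.H10.LocAlg
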