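import Mathlib
import Cfsg.Agent.H10_SimpTr
import Cfsg.Agent.H10_IdemLift
import Cfsg.Agent.H25_BlockReg3
import Cfsg.Agent.H9_BrCount

/-!
H10_BasicAlg: the corner of a primitive idempotent in a block of `kG` with one simple module.
-/

set_option autoImplicit false
set_option linter.style.haveILetI false
set_option linter.unusedSectionVars false

namespace Cfsg.Agent.H10.BasicAlg

open Cfsg Module Cfsg.Agent.H3.CharIrr Cfsg.Agent.H3.CharComplete Cfsg.Agent.H3.CharInd
  Cfsg.Agent.H3.CharBasic Cfsg.Agent.H10.BlockLoc Cfsg.Agent.H10.Char Cfsg.Agent.H10.BlockAlg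
  Cfsg.Agent.H10.BlockIdem Cfsg.Agent.H10.BlockOrth Cfsg.Agent.H10.BlockSMT2 Cfsg.Agent.H25.Red
  Cfsg.Agent.H10.LocAlg Cfsg.Agent.H10.IdemLift Cfsg.Agent.H10.RegPart
open scoped ComplexConjugate

variable {M : Ideal AlgInt} {G : Type*} [Group G] [Fintype G] {p : ℕ}

section red

variable [hMax : M.IsMaximal]

variable (M) in
/-- integrality of coefficients -/
def Int0 (a : MonoidAlgebra ℂ G) : Prop := ∀ g, MemLocalRing M (a.coeff g)

variable (M) in
/-- reduction -/
noncomputable def rdA (a : MonoidAlgebra ℂ G) : MonoidAlgebra (KM M) G := Cfsg.Agent.H25.KG.ofF fun g => rd M (a.coeff g)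

theorem rdA_c (a : MonoidAlgebra ℂ G) (g : G) : (rdA M a).coeff g = rd M (a.coeff g) := rfl

theorem int0_mul {a b : MonoidAlgebra ℂ G} (ha : Int0 M a) (hb : Int0 M b) : Int0 M (a * b) := by
  intro g
  rw [coeff_mul_left]
  exact ring_sum _ _ fun x _ => ring_mul (ha x) (hb _)

theorem int0_sub {a b : MonoidAlgebra ℂ G} (ha : Int0 M a) (hb : Int0 M b) : Int0 M (a - b) := by
  intro g
  show MemLocalRing M (a.coeff g - b.coeff g)
  exact ring_sub (ha g) (hb g)

theorem rdA_mul {a b : MonoidAlgebra ℂ G} (ha : Int0 M a) (hb : Int0 M b) : rdA M (a * b) = rdA M a * rdA M b := by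
  apply Cfsg.Agent.H25.KG.ext_c
  intro g
  rw [rdA_c, coeff_mul_left, Cfsg.Agent.H25.KG.mul_c, rd_sum _ _ fun x _ => ring_mul (ha x) (hb _)]
  exact Finset.sum_congr rfl fun x _ => rd_mul (ha x) (hb _)

theorem rdA_sub {a b : MonoidAlgebra ℂ G} (ha : Int0 M a) (hb : Int0 M b) : rdA M (a - b) = rdA M a - rdA M b := by
  apply Cfsg.Agent.H25.KG.ext_c
  intro g
  exact rd_sub (ha g) (hb g)

theorem int0_eB {B : Set (IrrCharacter G)} (hB : IsPBlock M B) : Int0 M (eB B : MonoidAlgebra ℂ G) := eB_mem_ZI hB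

theorem eB_comm (B : Set (IrrCharacter G)) (a : MonoidAlgebra ℂ G) :
    a * (eB B : MonoidAlgebra ℂ G) = (eB B : MonoidAlgebra ℂ G) * a :=
  ((Subalgebra.mem_center_iff.1 (eB B).2 a))

variable (M) in
/-- the reduced block idempotent -/
noncomputable def fk (B : Set (IrrCharacter G)) : MonoidAlgebra (KM M) G := rdA M (eB B : MonoidAlgebra ℂ G)

theorem fk_idem {B : Set (IrrCharacter G)} (hB : IsPBlock M B) : fk M B * fk M B = fk M B := by
  haveI : Fintype (IrrCharacter G) := Fintype.ofFinite _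
  unfold fk
  rw [← rdA_mul (int0_eB hB) (int0_eB hB)]
  congr 1
  exact congrArg Subtype.val (eB_mul_self B)

/-- every element lifts -/
theorem exists_lift_elt (a : MonoidAlgebra (KM M) G) : ∃ b : MonoidAlgebra ℂ G, Int0 M b ∧ rdA M b = a := by
  choose z hz hza using fun g => rd_surj (M := M) (a.coeff g)
  exact ⟨ofFun z, hz, Cfsg.Agent.H25.KG.ext_c fun g => hza g⟩

theorem fk_comm {B : Set (IrrCharacter G)} (hB : IsPBlock M B) (a : MonoidAlgebra (KM M) G) :
    a * fk M B = fk M B * a := by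
  obtain ⟨b, hb, rfl⟩ := exists_lift_elt a
  unfold fk
  rw [← rdA_mul hb (int0_eB hB), ← rdA_mul (int0_eB hB) hb, eB_comm]

theorem lin_mul_single (φ : G → ℂ) (a : MonoidAlgebra ℂ G) (g : G) :
    lin φ (a * MonoidAlgebra.single g 1) = ∑ x, a.coeff x * φ (x * g) := by
  classical
  rw [lin_mul]
  refine Finset.sum_congr rfl fun x _ => ?_
  rw [Finset.sum_eq_single g]
  · rw [MonoidAlgebra.coeff_single, Finsupp.single_eq_same, mul_one]
  · intro y _ hy
    rw [MonoidAlgebra.coeff_single, Finsupp.single_eq_of_ne hy, mul_zero, zero_mul]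
  · intro h; exact absurd (Finset.mem_univ _) h

theorem dual_apply {k : Type*} [Field k] (θ : MonoidAlgebra k G →ₗ[k] k) (a : MonoidAlgebra k G) (g : G) :
    θ (a * MonoidAlgebra.single g 1) = ∑ x, a.coeff x * θ (MonoidAlgebra.single (x * g) 1) := by
  classical
  have h1 : a * MonoidAlgebra.single g 1 = ∑ x, a.coeff x • MonoidAlgebra.single (x * g) (1 : k) := by
    conv_lhs => rw [show a = ∑ x, a.coeff x • MonoidAlgebra.single x (1 : k) by
      apply Cfsg.Agent.H25.KG.ext_c
      intro y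
      rw [MonoidAlgebra.coeff_sum, Finsupp.finsetSum_apply]
      simp [MonoidAlgebra.coeff_single, Finsupp.single_apply]]
    rw [Finset.sum_mul]
    refine Finset.sum_congr rfl fun x _ => ?_
    rw [smul_mul_assoc, MonoidAlgebra.single_mul_single, one_mul]
  rw [h1, map_sum]
  exact Finset.sum_congr rfl fun x _ => by rw [map_smul, smul_eq_mul]

theorem dual_apply' {k : Type*} [Field k] (θ : MonoidAlgebra k G →ₗ[k] k) (a : MonoidAlgebra k G) :
    θ a = ∑ x, a.coeff x * θ (MonoidAlgebra.single x 1) := by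
  have := dual_apply θ a 1
  rw [← MonoidAlgebra.one_def, mul_one] at this
  simpa using this

theorem exists_li_sub {k : Type*} [Field k] {V : Type*} [AddCommGroup V] [Module k V] [FiniteDimensional k V] (W : Submodule k V) :
    ∃ θ : Fin (finrank k W) → V, (∀ i, θ i ∈ W) ∧ LinearIndependent k θ := by
  let b := Module.finBasis k W
  exact ⟨fun i => (b i : V), fun i => (b i).2, b.linearIndependent.map' W.subtype (Submodule.ker_subtype _)⟩

theorem exists_li_dual {k : Type*} [Field k] {R : Type*} [Ring R] [Algebra k R] [FiniteDimensional k R] (f : R) :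
    ∃ θ : Fin (finrank k (TF k f)) → Dual k R, (∀ i, θ i ∈ TF k f) ∧ LinearIndependent k θ :=
  exists_li_sub (V := Dual k R) (TF k f)

theorem li_vals {k : Type*} [Field k] {n : ℕ} {θ : Fin n → Dual k (MonoidAlgebra k G)} (h : LinearIndependent k θ) :
    LinearIndependent k (fun i (g : G) => θ i (MonoidAlgebra.single g 1)) := by
  rw [Fintype.linearIndependent_iff] at h ⊢
  intro c hc
  apply h
  apply LinearMap.ext
  intro a
  rw [dual_apply' _ a, LinearMap.zero_apply]
  apply Finset.sum_eq_zero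
  intro x _
  have h2 := congrFun hc x
  rw [Finset.sum_apply] at h2
  have h3 : (∑ i, c i • θ i) (MonoidAlgebra.single x 1) =
      ∑ i, (c i • fun g : G => θ i (MonoidAlgebra.single g 1)) x := by
    rw [LinearMap.sum_apply]
    rfl
  rw [h3, h2, Pi.zero_apply, mul_zero]

/-- the number of independent trace functions of a block is at most `k(B)` -/
theorem finrank_TF_le [Fintype (IrrCharacter G)] {B : Set (IrrCharacter G)} (hB : IsPBlock M B) :
    finrank (KM M) (TF (KM M) (fk M B)) ≤ Nat.card B := by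
  classical
  choose L hL1 hL2 using rd_surj (M := M)
  set r := finrank (KM M) (TF (KM M) (fk M B)) with hr
  obtain ⟨b, hb, hli0⟩ := exists_li_dual (k := KM M) (fk M B)
  have hli := li_vals hli0
  let θ : Fin r → G → KM M := fun i g => b i (MonoidAlgebra.single g 1)
  have hθc : ∀ i (a g : G), θ i (a * g * a⁻¹) = θ i g := by
    intro i a g
    have h1 := (hb i).1 (MonoidAlgebra.single (a * g) 1) (MonoidAlgebra.single a⁻¹ 1)
    rw [MonoidAlgebra.single_mul_single, MonoidAlgebra.single_mul_single, one_mul] at h1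
    have h2 : a⁻¹ * (a * g) = g := by group
    rw [h2] at h1
    exact h1
  let w : Fin r → G → ℂ := fun i g => L (θ i g)
  have hwc : ∀ i, IsClassFunction G (w i) := by
    intro i g h
    show L (θ i _) = L (θ i _)
    rw [hθc]
  let v : Fin r → G → ℂ := fun i g => lin (w i) ((eB B : MonoidAlgebra ℂ G) * MonoidAlgebra.single g 1)
  have hv : ∀ i g, v i g = ∑ x, (eB B : MonoidAlgebra ℂ G).coeff x * w i (x * g) := fun i g => lin_mul_single _ _ _
  have hv1 : ∀ i g, MemLocalRing M (v i g) := by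
    intro i g
    rw [hv]
    exact ring_sum _ _ fun x _ => ring_mul (int0_eB hB x) (hL1 _)
  have hv2 : ∀ i g, rd M (v i g) = θ i g := by
    intro i g
    rw [hv, rd_sum _ _ fun x _ => ring_mul (int0_eB hB x) (hL1 _)]
    have h1 : ∀ x, rd M ((eB B : MonoidAlgebra ℂ G).coeff x * w i (x * g)) = (fk M B).coeff x * θ i (x * g) := by
      intro x
      rw [rd_mul (int0_eB hB x) (hL1 _), hL2]; rfl
    rw [Finset.sum_congr rfl fun x _ => h1 x]
    have h2 := dual_apply (b i) (fk M B) g
    rw [← fk_comm hB, (hb i).2] at h2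
    exact h2.symm
  have hliC : LinearIndependent ℂ v := by
    apply li_of_red v hv1
    have : (fun i x => rd M (v i x)) = θ := by funext i x; exact hv2 i x
    rw [this]; exact hli
  have hspan : Submodule.span ℂ (Set.range v) ≤ Submodule.span ℂ (Set.range fun χ : B => ((χ : IrrCharacter G) : G → ℂ)) := by
    rw [Submodule.span_le]
    rintro _ ⟨i, rfl⟩
    have h1 : v i = ∑ χ : IrrCharacter G, if χ ∈ B then classInner (w i) (χ : G → ℂ) • (χ : G → ℂ) else 0 := by
      funext g
      rw [Finset.sum_apply]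
      show lin (w i) ((eB B : MonoidAlgebra ℂ G) * MonoidAlgebra.single g 1) = _
      rw [← blockPart_eq_lin B (hwc i) g]
      unfold blockPart
      have e : (Fintype.ofFinite G) = (inferInstance : Fintype G) := Subsingleton.elim _ _
      rw [e, finsum_mem_irr]
      refine Finset.sum_congr rfl fun χ _ => ?_
      split_ifs <;> rfl
    rw [h1]
    refine Submodule.sum_mem _ fun χ _ => ?_
    split_ifs with h
    · exact Submodule.smul_mem _ _ (Submodule.subset_span ⟨⟨χ, h⟩, rfl⟩)
    · exact zero_mem _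
  haveI : Fintype B := Fintype.ofFinite _
  have h1 := Submodule.finrank_mono hspan
  rw [finrank_span_eq_card hliC, Fintype.card_fin] at h1
  rw [Nat.card_eq_fintype_card]
  exact h1.trans (finrank_range_le_card _)

end red

section full

variable [hp : Fact p.Prime]

theorem h9_rd_eq [hMax : M.IsMaximal] {z : ℂ} (hz : IsIntegral ℤ z) :
    (Cfsg.Agent.H9.BrRed.rd M z : KM M) = rd M z := by
  rw [Cfsg.Agent.H9.BrRed.rd_eq M hz, rd_of (memLocalRing_of_integral hMax.ne_top hz)]
  exact (res_algInt ⟨z, hz⟩ _).symm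

theorem bc_eq [hMax : M.IsMaximal] (χ : IrrCharacter G) (g : G) :
    (Cfsg.Agent.H9.BrCount.bc M χ g : KM M) = rd M ((χ : G → ℂ) g) :=
  h9_rd_eq (Cfsg.Agent.H9.BrCount.irr_integral χ g)

theorem lin_of_single {k : Type*} [Field k] (T : MonoidAlgebra k G →ₗ[k] k) (C : k) (φ : G → k)
    (h : ∀ g, T (MonoidAlgebra.single g 1) = C * φ g) (a : MonoidAlgebra k G) : T a = C * ∑ x, a.coeff x * φ x := by
  rw [dual_apply' _ a, Finset.mul_sum]
  refine Finset.sum_congr rfl fun x _ => ?_
  rw [h]; ring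

theorem comb1 {k : Type*} [Field k] {ι : Type*} [Fintype ι] (f T : G → k) (c : ι → k) (r : ι → G → k)
    (hT : ∀ g, T g = ∑ i, c i * r i g) (g : G) : ∑ x, f x * T (x * g) = ∑ i, c i * ∑ x, f x * r i (x * g) := by
  have h2 : ∀ x, f x * T (x * g) = ∑ i, c i * (f x * r i (x * g)) := by
    intro x
    rw [hT, Finset.mul_sum]
    exact Finset.sum_congr rfl fun χ _ => by ring
  rw [Finset.sum_congr rfl fun x _ => h2 x, Finset.sum_comm]
  exact Finset.sum_congr rfl fun χ _ => by rw [Finset.mul_sum]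

open Classical in
theorem comb2 {k : Type*} [Field k] {ι : Type*} [Fintype ι] (B : Set ι) (c r d : ι → k) (φ : k)
    (h : ∀ i ∈ B, r i = d i * φ) : ∑ i, c i * (if i ∈ B then r i else 0) = (∑ i, if i ∈ B then c i * d i else 0) * φ := by
  rw [Finset.sum_mul]
  refine Finset.sum_congr rfl fun i _ => ?_
  by_cases hi : i ∈ B
  · rw [if_pos hi, if_pos hi, h i hi]; ring
  · rw [if_neg hi, if_neg hi, mul_zero, zero_mul]

/-- when `l(B) = 1` every nonzero idempotent of the block is full -/
theorem full [hMax : M.IsMaximal] [Fintype (IrrCharacter G)] (hM : IsPModular p M) {B : Set (IrrCharacter G)} (hB : IsPBlock M B)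
    (hl : blockRank p B = 1) {j : MonoidAlgebra (KM M) G} (hj : j * j = j) (hj0 : j ≠ 0)
    (hjf : j ∈ cor (KM M) (fk M B)) : fk M B ∈ two (KM M) j := by
  classical
  by_contra hf
  haveI := charP_KM M hM
  haveI : IsAlgClosed (KM M) := Cfsg.Agent.H9.BrRed.isAlgClosed_residue (M := M)
  obtain ⟨T, hT1, hT2, hT3, hT4⟩ := exists_traces (p := p) hj hj0 (fk_comm hB) (fk_idem hB) hjf hf
  obtain ⟨φ, d, ⟨n, hn⟩, hd, -⟩ := Cfsg.Agent.H25.BlockReg3.rank_one hM hB hl
  have hint : ∀ (χ : IrrCharacter G) (g : G), MemLocalRing M ((χ : G → ℂ) g) := fun χ g =>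
    memLocalRing_of_integral hMax.ne_top (Cfsg.Agent.H9.BrCount.irr_integral χ g)
  have key : ∀ i, ∃ C : KM M, ∀ g, T i (MonoidAlgebra.single g 1) = C * rd M (φ (ppr p g)) := by
    intro i
    have hTc : ∀ a g : G, T i (MonoidAlgebra.single (a * g * a⁻¹) 1) = T i (MonoidAlgebra.single g 1) := by
      intro a g
      have h1 := hT1 i (MonoidAlgebra.single (a * g) 1) (MonoidAlgebra.single a⁻¹ 1)
      rw [MonoidAlgebra.single_mul_single, MonoidAlgebra.single_mul_single, one_mul] at h1
      have h2 : a⁻¹ * (a * g) = g := by group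
      rw [h2] at h1
      exact h1
    obtain ⟨c, hc'⟩ : ∃ c : IrrCharacter G → KM M, ∀ g, T i (MonoidAlgebra.single g 1) =
        ∑ χ : IrrCharacter G, c χ * rd M ((χ : G → ℂ) g) := by
      obtain ⟨c, hc⟩ := Cfsg.Agent.H9.BrCount.mem_span hM (fun g => (T i (MonoidAlgebra.single g 1) : KM M)) hTc (hT3 i)
      refine ⟨c, fun g => (hc g).trans ?_⟩
      refine Finset.sum_congr rfl fun χ _ => ?_
      exact congrArg (fun z : KM M => (show KM M from c χ) * z) (bc_eq χ g)
    refine ⟨∑ χ : IrrCharacter G, if χ ∈ B then c χ * (d χ : KM M) else 0, fun g => ?_⟩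
    have h1 : T i (MonoidAlgebra.single g 1) = T i (fk M B * MonoidAlgebra.single g 1) := by
      rw [← fk_comm hB, hT2]
    rw [h1, dual_apply, comb1 _ (fun g => T i (MonoidAlgebra.single g 1)) c (fun χ g => rd M ((χ : G → ℂ) g)) hc' g]
    have h3 : ∀ χ : IrrCharacter G, ∑ x, (fk M B).coeff x * rd M ((χ : G → ℂ) (x * g)) = if χ ∈ B then rd M ((χ : G → ℂ) g) else 0 := by
      intro χ
      have h4 := lin_mul_single (χ : G → ℂ) (eB B : MonoidAlgebra ℂ G) g
      rw [lin_mul_om, lin_single, one_mul, om_eB] at h4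
      have h5 : rd M (∑ x, (eB B : MonoidAlgebra ℂ G).coeff x * (χ : G → ℂ) (x * g)) = ∑ x, (fk M B).coeff x * rd M ((χ : G → ℂ) (x * g)) := by
        rw [rd_sum _ _ fun x _ => ring_mul (int0_eB hB x) (hint χ _)]
        exact Finset.sum_congr rfl fun x _ => rd_mul (int0_eB hB x) (hint χ _)
      rw [← h5, ← h4]
      split_ifs
      · rw [one_mul]
      · rw [zero_mul, rd_zero]
    rw [Finset.sum_congr rfl fun χ _ => congrArg (fun z => c χ * z) (h3 χ)]
    apply comb2
    intro χ hχ
    have hreg : IsPRegular p (ppr p g) := by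
      obtain ⟨x, -, -, -, h4⟩ := ppr_spec (p := p) g
      exact h4
    have h4 : rd M ((χ : G → ℂ) g) = rd M ((χ : G → ℂ) (ppr p g)) := by
      rw [← bc_eq, ← bc_eq]
      exact Cfsg.Agent.H9.BrCount.bc_ppr hM χ g
    have h5 : MemLocalRing M (φ (ppr p g)) := by
      rw [hn _ hreg, finsum_mem_irr]
      refine ring_sum _ _ fun ψ _ => ?_
      split_ifs
      · exact ring_mul (ring_intCast _) (hint ψ _)
      · exact ring_zero
    have h6 : rd M (d χ : ℂ) = (d χ : KM M) := by
      rw [rd_of (ring_natCast _)]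
      have : (⟨(d χ : ℂ), ring_natCast (M := M) (d χ)⟩ : locRing M) = (d χ : locRing M) := Subtype.ext (by simp)
      rw [this, map_natCast]
    rw [h4, hd χ hχ _ hreg, rd_mul (ring_natCast _) h5, h6]
  choose C hC using key
  have hall : ∀ i a, T i a = C i * ∑ x, a.coeff x * rd M (φ (ppr p x)) := by
    intro i a
    exact lin_of_single (T i) (C i) _ (hC i) a
  have h1 := hT4 ![C 1, - C 0] (by
    intro a
    rw [Fin.sum_univ_two, hall, hall]
    simp only [Matrix.cons_val_zero, Matrix.cons_val_one]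
    ring)
  have h2 : C 0 = 0 := by
    have := h1 1
    simp only [Matrix.cons_val_one] at this
    exact neg_eq_zero.1 this
  have h3 := hT4 ![1, 0] (by
    intro a
    rw [Fin.sum_univ_two, hall, hall, h2]
    simp only [Matrix.cons_val_zero, Matrix.cons_val_one]
    ring) 0
  simp only [Matrix.cons_val_zero] at h3
  exact one_ne_zero h3

end full

end Cfsg.Agent.H10.BasicAlg
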