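import Mathlib
import Cfsg.Agent.H10_BasicAlg
import Cfsg.Agent.H10_BlockGreen
import Cfsg.Agent.H26_Basic

/-!
H10_BasicAlg2: dimension of the corner of a primitive idempotent; blocks with one Brauer character and
few ordinary characters.
-/

set_option autoImplicit false
set_option linter.style.haveILetI false
set_option linter.unusedSectionVars false

namespace Cfsg.Agent.H10.BasicAlg

open Cfsg Module Cfsg.Agent.H3.CharIrr Cfsg.Agent.H3.CharComplete Cfsg.Agent.H3.CharInd
  Cfsg.Agent.H3.CharBasic Cfsg.Agent.H10.BlockLoc Cfsg.Agent.H10.Char Cfsg.Agent.H10.BlockAlg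
  Cfsg.Agent.H10.BlockIdem Cfsg.Agent.H10.BlockOrth Cfsg.Agent.H10.BlockSMT2 Cfsg.Agent.H25.Red
  Cfsg.Agent.H10.LocAlg Cfsg.Agent.H10.IdemLift Cfsg.Agent.H10.RegPart Cfsg.Agent.H10.BlockMain
  Cfsg.Agent.H10.BlockGreen Cfsg.Agent.H10.BlockHZ
open scoped ComplexConjugate

variable {M : Ideal AlgInt} {G : Type*} [Group G] [Fintype G] {p : ℕ}

/-- the value of a character at an idempotent is a natural number -/
theorem lin_nat {e : MonoidAlgebra ℂ G} (he : e * e = e) (χ : IrrCharacter G) : ∃ n : ℕ, lin (χ : G → ℂ) e = n := by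
  obtain ⟨n, ρ, -, hρ⟩ := χ.2
  have h1 : lin (χ : G → ℂ) e = LinearMap.trace ℂ _ (ρ.asAlgebraHom e) := by
    classical
    have h2 : e = ∑ x, e.coeff x • MonoidAlgebra.single x (1 : ℂ) := by
      apply Cfsg.Agent.H25.KG.ext_c
      intro y
      rw [MonoidAlgebra.coeff_sum, Finsupp.finsetSum_apply]
      simp [MonoidAlgebra.coeff_single, Finsupp.single_apply]
    conv_rhs => rw [h2, map_sum, map_sum]
    rw [lin_apply]
    refine Finset.sum_congr rfl fun x _ => ?_
    rw [map_smul, map_smul, Representation.asAlgebraHom_single_one, smul_eq_mul, ← hρ]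
    rfl
  have h2 : IsIdempotentElem (ρ.asAlgebraHom e) := by
    show ρ.asAlgebraHom e * ρ.asAlgebraHom e = ρ.asAlgebraHom e
    rw [← map_mul, he]
  have h3 := LinearMap.IsIdempotentElem.isProj_range _ h2
  exact ⟨_, by rw [h1]; exact h3.trace⟩

/-- the operator `f ↦ e f e` on functions -/
noncomputable def Tf (e : MonoidAlgebra ℂ G) : (G → ℂ) →ₗ[ℂ] (G → ℂ) where
  toFun f g := (e * ofFun f * e).coeff g
  map_add' f f' := by
    funext g
    have : ofFun (f + f') = ofFun f + ofFun f' := ext_coeff fun _ => rfl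
    rw [this, mul_add, add_mul]; rfl
  map_smul' c f := by
    funext g
    have : ofFun (c • f) = c • ofFun f := ext_coeff fun _ => rfl
    rw [this, mul_smul_comm, smul_mul_assoc]; rfl

theorem Tf_apply (e : MonoidAlgebra ℂ G) (f : G → ℂ) (g : G) : Tf e f g = (e * ofFun f * e).coeff g := rfl

theorem Tf_idem {e : MonoidAlgebra ℂ G} (he : e * e = e) : IsIdempotentElem (Tf e) := by
  apply LinearMap.ext
  intro f
  funext g
  rw [Module.End.mul_apply, Tf_apply]
  have h1 : ofFun (Tf e f) = e * ofFun f * e := ext_coeff fun _ => rfl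
  rw [h1, Tf_apply]
  have h2 : e * (e * ofFun f * e) * e = e * ofFun f * e := by
    calc e * (e * ofFun f * e) * e = (e * e) * ofFun f * (e * e) := by simp only [mul_assoc]
      _ = e * ofFun f * e := by rw [he]
  rw [h2]

theorem Tf_trace [Fintype (IrrCharacter G)] (e : MonoidAlgebra ℂ G) :
    LinearMap.trace ℂ (G → ℂ) (Tf e) = ∑ χ : IrrCharacter G, (lin (χ : G → ℂ) e) ^ 2 := by
  classical
  have h1 : LinearMap.trace ℂ (G → ℂ) (Tf e) = ∑ g, Tf e (Pi.single g 1) g := by
    rw [LinearMap.trace_eq_matrix_trace ℂ (Pi.basisFun ℂ G), Matrix.trace]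
    refine Finset.sum_congr rfl fun g _ => ?_
    rw [Matrix.diag_apply, LinearMap.toMatrix_apply, Pi.basisFun_apply, Pi.basisFun_repr]
  have h2 : ∀ g, Tf e (Pi.single g 1) g = ∑ x, e.coeff x * e.coeff (g⁻¹ * x⁻¹ * g) := by
    intro g
    have e1 : (ofFun (Pi.single g (1:ℂ)) : MonoidAlgebra ℂ G) = MonoidAlgebra.single g 1 := by
      apply ext_coeff
      intro h
      rw [coeff_ofFun, MonoidAlgebra.coeff_single, Finsupp.single_apply, Pi.single_apply]
      simp only [eq_comm]
    rw [Tf_apply, e1, mul_assoc, coeff_mul_left]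
    refine Finset.sum_congr rfl fun x _ => ?_
    congr 1
    rw [coeff_mul_left, Finset.sum_eq_single g]
    · rw [MonoidAlgebra.coeff_single, Finsupp.single_eq_same, one_mul, mul_assoc]
    · intro y _ hy
      rw [MonoidAlgebra.coeff_single, Finsupp.single_eq_of_ne hy, zero_mul]
    · intro h; exact absurd (Finset.mem_univ _) h
  rw [h1, Finset.sum_congr rfl fun g _ => h2 g, Finset.sum_comm]
  let F : G → ℂ := fun x => ∑ g, e.coeff (g⁻¹ * x⁻¹ * g)
  have hF : IsClassFunction G F := by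
    intro x h
    show ∑ g, e.coeff (g⁻¹ * _⁻¹ * g) = ∑ g, e.coeff (g⁻¹ * _⁻¹ * g)
    refine Fintype.sum_equiv (Equiv.mulLeft h⁻¹) _ _ fun g => ?_
    congr 1
    simp only [Equiv.coe_mulLeft]
    group
  have hci : ∀ χ : IrrCharacter G, classInner F (χ : G → ℂ) = lin (χ : G → ℂ) e := by
    intro χ
    rw [classInner, lin_apply]
    have h3 : ∀ z : G, F z * conj ((χ : G → ℂ) z) = ∑ g, e.coeff (g⁻¹ * z⁻¹ * g) * (χ : G → ℂ) (g⁻¹ * z⁻¹ * g) := by
      intro z
      rw [Finset.sum_mul]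
      refine Finset.sum_congr rfl fun g _ => ?_
      have h4 : (χ : G → ℂ) (g⁻¹ * z⁻¹ * g) = conj ((χ : G → ℂ) z) := by
        have h5 := irr_class χ.2 z⁻¹ g⁻¹
        rw [inv_inv] at h5
        rw [h5, IsChar.inv_eq_conj (IsIrr.isCharacter χ.2)]
      rw [h4]
    rw [Finset.sum_congr rfl fun z _ => h3 z, Finset.sum_comm]
    have h4 : ∀ g : G, ∑ z, e.coeff (g⁻¹ * z⁻¹ * g) * (χ : G → ℂ) (g⁻¹ * z⁻¹ * g) = ∑ y, e.coeff y * (χ : G → ℂ) y := by
      intro g
      refine Fintype.sum_equiv ((Equiv.inv G).trans (MulAut.conj g⁻¹).toEquiv) _ _ fun z => ?_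
      simp
    rw [Finset.sum_congr rfl fun g _ => h4 g, Finset.sum_const, Finset.card_univ, nsmul_eq_mul, ← mul_assoc,
      Nat.card_eq_fintype_card, inv_mul_cancel₀ (Nat.cast_ne_zero.2 Fintype.card_ne_zero), one_mul]
  have h5 : ∀ x, ∑ g, e.coeff x * e.coeff (g⁻¹ * x⁻¹ * g) = ∑ χ : IrrCharacter G, lin (χ : G → ℂ) e * (e.coeff x * (χ : G → ℂ) x) := by
    intro x
    rw [← Finset.mul_sum]
    have h6 := expand_apply F hF x
    change ∑ g, e.coeff (g⁻¹ * x⁻¹ * g) = _ at h6
    rw [h6, Finset.mul_sum]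
    refine Finset.sum_congr rfl fun χ _ => ?_
    rw [hci]; ring
  rw [Finset.sum_congr rfl fun x _ => h5 x, Finset.sum_comm]
  refine Finset.sum_congr rfl fun χ _ => ?_
  rw [← Finset.mul_sum, ← lin_apply, pow_two]

theorem li_coeff {k : Type*} [Field k] {n : ℕ} {θ : Fin n → MonoidAlgebra k G} (h : LinearIndependent k θ) :
    LinearIndependent k (fun i (g : G) => (θ i).coeff g) := by
  rw [Fintype.linearIndependent_iff] at h ⊢
  intro c hc
  apply h
  apply Cfsg.Agent.H25.KG.ext_c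
  intro g
  have h2 := congrFun hc g
  rw [Finset.sum_apply] at h2
  rw [MonoidAlgebra.coeff_sum, Finsupp.finsetSum_apply]
  exact h2

/-- the complement of the corner -/
theorem finrank_cor_add {k : Type*} [Field k] {R : Type*} [Ring R] [Algebra k R] [FiniteDimensional k R] {j : R} (hj : j * j = j) :
    finrank k (cor k j) + finrank k (LinearMap.ker ((LinearMap.mulLeft k j).comp (LinearMap.mulRight k j))) = finrank k R := by
  have h1 : LinearMap.range ((LinearMap.mulLeft k j).comp (LinearMap.mulRight k j)) = cor k j := by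
    ext x
    constructor
    · rintro ⟨y, rfl⟩
      rw [LinearMap.comp_apply, LinearMap.mulLeft_apply, LinearMap.mulRight_apply]
      exact ⟨by rw [← mul_assoc, hj], by rw [mul_assoc, mul_assoc, hj]⟩
    · rintro ⟨h1, h2⟩
      exact ⟨x, by rw [LinearMap.comp_apply, LinearMap.mulLeft_apply, LinearMap.mulRight_apply, h2, h1]⟩
  rw [← h1]
  exact LinearMap.finrank_range_add_finrank_ker _

theorem finrank_MA {k : Type*} [Field k] : finrank k (MonoidAlgebra k G) = Fintype.card G := by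
  have e : MonoidAlgebra k G ≃ₗ[k] (G → k) :=
    { toFun := fun a g => a.coeff g
      map_add' := fun _ _ => rfl
      map_smul' := fun _ _ => rfl
      invFun := fun f => Cfsg.Agent.H25.KG.ofF f
      left_inv := fun a => Cfsg.Agent.H25.KG.ext_c fun _ => rfl
      right_inv := fun f => rfl }
  rw [e.finrank_eq, Module.finrank_fintype_fun_eq_card]

theorem sum_sq_le [hMax : M.IsMaximal] [Fintype (IrrCharacter G)] {e : MonoidAlgebra ℂ G} (he : e * e = e) (hi : Int0 M e) :
    ∃ w : IrrCharacter G → ℕ, (∀ χ : IrrCharacter G, lin (χ : G → ℂ) e = w χ) ∧ (e ≠ 0 → ∃ χ, w χ ≠ 0) ∧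
      ∑ χ, (w χ) ^ 2 ≤ finrank (KM M) (cor (KM M) (rdA M e)) := by
  classical
  choose w hw using lin_nat he
  refine ⟨w, hw, ?_⟩
  have hj : rdA M e * rdA M e = rdA M e := by rw [← rdA_mul hi hi, he]
  have hP := LinearMap.IsIdempotentElem.isProj_range _ (Tf_idem he)
  have h1 := hP.trace
  rw [Tf_trace] at h1
  have h2 : ∑ χ, (w χ) ^ 2 = finrank ℂ (LinearMap.range (Tf e)) := by
    have : ((∑ χ, (w χ) ^ 2 : ℕ) : ℂ) = (finrank ℂ (LinearMap.range (Tf e)) : ℂ) := by
      rw [← h1]; push_cast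
      exact Finset.sum_congr rfl fun χ _ => by rw [hw]
    exact_mod_cast this
  refine ⟨?_, ?_⟩
  · intro hne
    by_contra hcon
    push Not at hcon
    apply hne
    have h3 : finrank ℂ (LinearMap.range (Tf e)) = 0 := by
      rw [← h2]
      exact Finset.sum_eq_zero fun χ _ => by rw [hcon χ]; rfl
    have h4 : LinearMap.range (Tf e) = ⊥ := Submodule.finrank_eq_zero.1 h3
    have h5 : Tf e = 0 := LinearMap.range_eq_bot.1 h4
    apply ext_coeff
    intro g
    have h6 := congrFun (LinearMap.congr_fun h5 (fun g => e.coeff g)) g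
    rw [Tf_apply] at h6
    have h7 : (ofFun (fun g => e.coeff g) : MonoidAlgebra ℂ G) = e := ext_coeff fun _ => rfl
    rw [h7, he, he] at h6
    exact h6
  rw [h2]
  have h3 := LinearMap.finrank_range_add_finrank_ker (Tf e)
  rw [Module.finrank_fintype_fun_eq_card] at h3
  have h4 := finrank_cor_add (k := KM M) hj
  rw [finrank_MA] at h4
  set K := LinearMap.ker ((LinearMap.mulLeft (KM M) (rdA M e)).comp (LinearMap.mulRight (KM M) (rdA M e))) with hK
  obtain ⟨θ, hθ, hli⟩ := exists_li_sub (k := KM M) K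
  choose b hb hbθ using fun i => exists_lift_elt (θ i)
  let v : Fin (finrank (KM M) K) → G → ℂ := fun i g => (b i - e * b i * e).coeff g
  have hint : ∀ i, Int0 M (b i - e * b i * e) := fun i => int0_sub (hb i) (int0_mul (int0_mul hi (hb i)) hi)
  have hred : ∀ i, rdA M (b i - e * b i * e) = θ i := by
    intro i
    rw [rdA_sub (hb i) (int0_mul (int0_mul hi (hb i)) hi), rdA_mul (int0_mul hi (hb i)) hi, rdA_mul hi (hb i), hbθ]
    have h5 := hθ i
    rw [hK, LinearMap.mem_ker, LinearMap.comp_apply, LinearMap.mulLeft_apply, LinearMap.mulRight_apply] at h5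
    rw [mul_assoc, h5, sub_zero]
  have hliC : LinearIndependent ℂ v := by
    apply li_of_red v (fun i g => hint i g)
    have h5 : (fun i x => rd M (v i x)) = fun i g => (θ i).coeff g := by
      funext i g
      rw [← hred i]; rfl
    rw [h5]
    exact li_coeff hli
  have hspan : Submodule.span ℂ (Set.range v) ≤ LinearMap.ker (Tf e) := by
    rw [Submodule.span_le]
    rintro _ ⟨i, rfl⟩
    show Tf e (v i) = 0
    funext g
    rw [Tf_apply]
    have h5 : ofFun (v i) = b i - e * b i * e := ext_coeff fun _ => rfl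
    rw [h5]
    have h6 : e * (b i - e * b i * e) * e = 0 := by
      rw [mul_sub, sub_mul]
      have : e * (e * b i * e) * e = (e * e) * b i * (e * e) := by simp only [mul_assoc]
      rw [this, he, sub_self]
    rw [h6]; rfl
  have h5 := Submodule.finrank_mono hspan
  rw [finrank_span_eq_card hliC, Fintype.card_fin] at h5
  omega

theorem fk_ne_zero [hMax : M.IsMaximal] {B : Set (IrrCharacter G)} (hB : IsPBlock M B) : fk M B ≠ 0 := by
  classical
  haveI : Fintype (ConjClasses G) := Fintype.ofFinite _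
  haveI : Fintype (IrrCharacter G) := Fintype.ofFinite _
  obtain ⟨χ, hχ⟩ := block_nonempty hB
  intro h
  apply one_notMem_ideal (M := M)
  have h1 := om_eB B χ
  rw [if_pos hχ] at h1
  rw [← h1, om_eq_sum]
  refine ideal_sum _ _ fun C _ => ideal_mul_right ?_ (om_cs_mem χ _)
  rw [← rd_eq_zero_iff (int0_eB hB _)]
  have h2 : (fk M B).coeff (rep C) = 0 := by rw [h]; rfl
  exact h2

/-- the coefficient at the identity -/
theorem coeff_one [Fintype (IrrCharacter G)] (e : MonoidAlgebra ℂ G) :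
    ∑ χ : IrrCharacter G, (χ : G → ℂ) 1 * lin (χ : G → ℂ) e = (Nat.card G : ℂ) * e.coeff 1 := by
  classical
  have h1 : ∀ χ : IrrCharacter G, (χ : G → ℂ) 1 * lin (χ : G → ℂ) e = ∑ x, e.coeff x * ((χ : G → ℂ) x * conj ((χ : G → ℂ) 1)) := by
    intro χ
    rw [lin_apply, Finset.mul_sum]
    refine Finset.sum_congr rfl fun x _ => ?_
    have h2 : conj ((χ : G → ℂ) 1) = (χ : G → ℂ) 1 := by
      rw [← Cfsg.Agent.H26.Basic.cd_eq, Complex.conj_natCast]
    rw [h2]; ring
  rw [Finset.sum_congr rfl fun χ _ => h1 χ, Finset.sum_comm]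
  rw [Finset.sum_eq_single 1]
  · rw [← Finset.mul_sum, orth2, if_pos (IsConj.refl _)]
    have h3 : Nat.card (Subgroup.centralizer ({1} : Set G)) = Nat.card G := by
      have h4 : Subgroup.centralizer ({1} : Set G) = ⊤ := by
        rw [eq_top_iff]
        intro g _
        rw [Subgroup.mem_centralizer_singleton_iff, mul_one, one_mul]
      rw [h4, Subgroup.card_top]
    rw [h3, mul_comm]
  · intro x _ hx
    rw [← Finset.mul_sum, orth2, if_neg, mul_zero]
    intro h
    exact hx (isConj_one_left.1 h)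
  · intro h; exact absurd (Finset.mem_univ _) h

/-- the symmetrizing form -/
noncomputable def tau (k : Type*) [Field k] (G : Type*) [Group G] : MonoidAlgebra k G →ₗ[k] k where
  toFun a := a.coeff 1
  map_add' _ _ := rfl
  map_smul' _ _ := rfl

theorem tau_comm {k : Type*} [Field k] (a b : MonoidAlgebra k G) : tau k G (a * b) = tau k G (b * a) := by
  show (a * b).coeff 1 = (b * a).coeff 1
  rw [Cfsg.Agent.H25.KG.mul_c, Cfsg.Agent.H25.KG.mul_c']
  refine Finset.sum_congr rfl fun x _ => ?_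
  rw [mul_one, one_mul, mul_comm]

theorem tau_nd {k : Type*} [Field k] (x : MonoidAlgebra k G) (h : ∀ y, tau k G (x * y) = 0) : x = 0 := by
  classical
  apply Cfsg.Agent.H25.KG.ext_c
  intro g
  have h1 := h (MonoidAlgebra.single g⁻¹ 1)
  change (x * MonoidAlgebra.single g⁻¹ 1).coeff 1 = 0 at h1
  rw [Cfsg.Agent.H25.KG.mul_c', Finset.sum_eq_single g⁻¹] at h1
  · rw [MonoidAlgebra.coeff_single, Finsupp.single_eq_same, mul_one, one_mul, inv_inv] at h1
    exact h1
  · intro y _ hy
    rw [MonoidAlgebra.coeff_single, Finsupp.single_eq_of_ne hy, mul_zero]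
  · intro h; exact absurd (Finset.mem_univ _) h

open Classical in
/-- the order of the defect group when `l(B) = 1` and `k(B) ≤ 4` -/
theorem card_eq [hp : Fact p.Prime] (hM : IsPModular p M) {B : Set (IrrCharacter G)} (hB : IsPBlock M B)
    {D : Subgroup G} (hD : IsDefectGroup p M B D) (hl : blockRank p B = 1) (hk : Nat.card B ≤ 4) :
    Nat.card D = Nat.card B := by
  haveI hMax := hM.2.1
  haveI : Fintype (IrrCharacter G) := Fintype.ofFinite _
  haveI : Fintype B := Fintype.ofFinite _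
  haveI : IsAlgClosed (KM M) := Cfsg.Agent.H9.BrRed.isAlgClosed_residue (M := M)
  obtain ⟨φ, d, ⟨n, hn⟩, hd, hsum⟩ := Cfsg.Agent.H25.BlockReg3.rank_one hM hB hl
  rw [← card_defectGroup hM hB hD, finsum_mem_irr] at hsum
  -- the primitive idempotent
  obtain ⟨j, hjf, hjj, hj0, hprim⟩ := exists_prim (k := KM M) (fk_idem hB) (fk_ne_zero hB)
  obtain ⟨J, hJ⟩ := exists_dat (k := KM M) hjj hj0 hprim
  have hfull := full hM hB hl hjj hj0 hjf
  have hdim := finrank_cor_le hjj (fk_comm hB) (fk_idem hB) hjf hfull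
  have hTF := finrank_TF_le (M := M) hB
  have hcm := cm_bot hJ (no_ideal hjj (tau (KM M) G) tau_comm tau_nd) (by omega)
  rw [hcm, finrank_bot, zero_add] at hdim
  have hcor : finrank (KM M) (cor (KM M) j) ≤ Nat.card B := hdim.trans hTF
  -- lift
  obtain ⟨e0, he0, hi0, hr0⟩ := exists_lift j hjj
  have hr0' : rdA M e0 = j := Cfsg.Agent.H25.KG.ext_c hr0
  set e : MonoidAlgebra ℂ G := (eB B : MonoidAlgebra ℂ G) * e0 with hedef
  have hBB : (eB B : MonoidAlgebra ℂ G) * (eB B : MonoidAlgebra ℂ G) = (eB B : MonoidAlgebra ℂ G) :=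
    congrArg Subtype.val (eB_mul_self B)
  have hee : e * e = e := by
    rw [hedef]
    calc (eB B : MonoidAlgebra ℂ G) * e0 * ((eB B : MonoidAlgebra ℂ G) * e0) =
        (eB B : MonoidAlgebra ℂ G) * (e0 * (eB B : MonoidAlgebra ℂ G)) * e0 := by simp only [mul_assoc]
      _ = ((eB B : MonoidAlgebra ℂ G) * (eB B : MonoidAlgebra ℂ G)) * (e0 * e0) := by rw [eB_comm]; simp only [mul_assoc]
      _ = _ := by rw [hBB, he0]
  have hie : Int0 M e := int0_mul (int0_eB hB) hi0
  have hre : rdA M e = j := by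
    rw [hedef, rdA_mul (int0_eB hB) hi0, hr0']
    exact hjf.1
  obtain ⟨w, hw, hw0, hwle⟩ := sum_sq_le hee hie
  rw [hre] at hwle
  have he0' : e ≠ 0 := by
    intro h
    apply hj0
    rw [← hre, h]
    apply Cfsg.Agent.H25.KG.ext_c
    intro g
    exact rd_zero
  have hwB : ∀ χ, χ ∉ B → w χ = 0 := by
    intro χ hχ
    have h1 := hw χ
    rw [hedef, lin_mul_om, om_eB, if_neg hχ, zero_mul] at h1
    exact_mod_cast h1.symm
  obtain ⟨χ1, hχ1⟩ := hw0 he0'
  have hχ1B : χ1 ∈ B := by by_contra h; exact hχ1 (hwB χ1 h)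
  -- the degree of the Brauer character
  have hreg1 : IsPRegular p (1 : G) := by
    show ¬ p ∣ orderOf (1 : G)
    rw [orderOf_one, Nat.dvd_one]; exact hp.out.ne_one
  set mz : ℤ := ∑ ψ : IrrCharacter G, if ψ ∈ B then n ψ * (charDegree (ψ : G → ℂ) : ℤ) else 0 with hmz
  have hmφ : φ 1 = mz := by
    rw [hn 1 hreg1, finsum_mem_irr, hmz]
    push_cast
    refine Finset.sum_congr rfl fun ψ _ => ?_
    split_ifs
    · rw [← Cfsg.Agent.H26.Basic.cd_eq]
    · rfl
  have hdeg : ∀ χ ∈ B, (charDegree (χ : G → ℂ) : ℤ) = d χ * mz := by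
    intro χ hχ
    have h1 := hd χ hχ 1 hreg1
    rw [← Cfsg.Agent.H26.Basic.cd_eq, hmφ] at h1
    exact_mod_cast h1
  have hmpos : 0 < mz := by
    have h1 := hdeg χ1 hχ1B
    have h2 := Cfsg.Agent.H26.Basic.cd_pos χ1
    by_contra h3
    have h4 : (d χ1 : ℤ) * mz ≤ 0 := mul_nonpos_of_nonneg_of_nonpos (by positivity) (not_lt.1 h3)
    omega
  obtain ⟨m, hm⟩ := Int.eq_ofNat_of_zero_le hmpos.le
  rw [hm] at hdeg hmpos
  have hdegN : ∀ χ ∈ B, charDegree (χ : G → ℂ) = d χ * m := by
    intro χ hχ; exact_mod_cast hdeg χ hχ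
  have hm0 : 0 < m := by exact_mod_cast hmpos
  have hdpos : ∀ χ ∈ B, 0 < d χ := by
    intro χ hχ
    have h1 := hdegN χ hχ
    have h2 := Cfsg.Agent.H26.Basic.cd_pos χ
    rw [h1] at h2
    exact Nat.pos_of_mul_pos_right h2
  -- divisibility
  set S : ℕ := ∑ χ : IrrCharacter G, w χ * (if χ ∈ B then d χ else 0) with hS
  have hSpos : 0 < S := by
    have h1 : 0 < w χ1 * (if χ1 ∈ B then d χ1 else 0) := by
      rw [if_pos hχ1B]; exact Nat.mul_pos (Nat.pos_of_ne_zero hχ1) (hdpos χ1 hχ1B)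
    exact lt_of_lt_of_le h1 (Finset.single_le_sum (f := fun χ => w χ * (if χ ∈ B then d χ else 0)) (fun _ _ => Nat.zero_le _) (Finset.mem_univ χ1))
  have hco : ((m * S : ℕ) : ℂ) / (Nat.card G : ℂ) = e.coeff 1 := by
    have h1 := coeff_one e
    have h2 : ∑ χ : IrrCharacter G, (χ : G → ℂ) 1 * lin (χ : G → ℂ) e = ((m * S : ℕ) : ℂ) := by
      rw [hS, Finset.mul_sum]
      push_cast
      refine Finset.sum_congr rfl fun χ _ => ?_
      rw [hw]
      by_cases hχ : χ ∈ B
      · rw [if_pos hχ, ← Cfsg.Agent.H26.Basic.cd_eq, hdegN χ hχ]; push_cast; ring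
      · rw [hwB χ hχ]; simp
    rw [← h2, h1]
    have h3 : (Nat.card G : ℂ) ≠ 0 := Nat.cast_ne_zero.2 Nat.card_pos.ne'
    field_simp
  have hval : (Nat.card G).factorization p ≤ (m * S).factorization p := by
    rw [← ring_nat_div_iff hM (Nat.mul_ne_zero hm0.ne' hSpos.ne') Nat.card_pos.ne', hco]
    exact hie 1
  obtain ⟨χ0, hχ0, hh0⟩ := exists_height_zero (p := p) hB
  have hcd := card_defect_eq hM hB hD hχ0 hh0
  have hmv : m.factorization p ≤ (charDegree (χ0 : G → ℂ)).factorization p := by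
    rw [hdegN χ0 hχ0]
    exact (Nat.factorization_le_iff_dvd hm0.ne' (Nat.mul_ne_zero (hdpos χ0 hχ0).ne' hm0.ne')).2 (Dvd.intro_left _ rfl) p
  rw [Nat.factorization_mul hm0.ne' hSpos.ne', Finsupp.add_apply] at hval
  have hDS : (Nat.card D).factorization p ≤ S.factorization p := by omega
  have hDdvd : Nat.card D ∣ S := by
    rw [card_defectGroup hM hB hD, Nat.factorization_pow, Finsupp.smul_apply, Nat.Prime.factorization_self hp.out,
      smul_eq_mul, mul_one] at hDS
    rw [card_defectGroup hM hB hD]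
    exact (hp.out.pow_dvd_iff_le_factorization hSpos.ne').2 hDS
  have hDS' := Nat.le_of_dvd hSpos hDdvd
  -- Cauchy-Schwarz
  have hCS : S ^ 2 ≤ (∑ χ, w χ ^ 2) * ∑ χ : IrrCharacter G, (if χ ∈ B then d χ else 0) ^ 2 :=
    Finset.sum_mul_sq_le_sq_mul_sq _ _ _
  have hd2 : ∑ χ : IrrCharacter G, (if χ ∈ B then d χ else 0) ^ 2 = Nat.card D := by
    rw [← hsum]
    refine Finset.sum_congr rfl fun χ _ => ?_
    split_ifs <;> rfl
  rw [hd2] at hCS
  have hDpos : 0 < Nat.card D := Nat.card_pos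
  have h1 : Nat.card D ≤ Nat.card B := by
    have h2 : Nat.card D * Nat.card D ≤ (Nat.card B) * Nat.card D := by
      calc Nat.card D * Nat.card D ≤ S * S := Nat.mul_le_mul hDS' hDS'
        _ = S ^ 2 := by ring
        _ ≤ _ := hCS
        _ ≤ _ := Nat.mul_le_mul_right _ (hwle.trans hcor)
    exact Nat.le_of_mul_le_mul_right h2 hDpos
  have h2 : Nat.card B ≤ Nat.card D := by
    rw [← hsum, ← Finset.sum_filter]
    have h3 : Nat.card B = ∑ χ ∈ Finset.univ.filter (fun χ : IrrCharacter G => χ ∈ B), 1 := by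
      rw [Finset.sum_const, smul_eq_mul, mul_one, Nat.card_eq_fintype_card, Fintype.card_subtype]
    rw [h3]
    refine Finset.sum_le_sum fun χ hχ => ?_
    have := hdpos χ (Finset.mem_filter.1 hχ).2
    exact Nat.one_le_pow _ _ this
  omega

end Cfsg.Agent.H10.BasicAlg
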