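import Mathlib
import Cfsg.Prelude.Def_Blocks
import Cfsg.Agent.H10_BlockKer
import Cfsg.Agent.H10_RegPart

/-!
H10_BlockGal: blocks do not depend on the choice of the maximal ideal over p.
-/

set_option autoImplicit false
set_option linter.style.haveILetI false
set_option linter.unusedSectionVars false

namespace Cfsg.Agent.H10.BlockGal

open Cfsg Cfsg.Agent.H3.CharIrr Cfsg.Agent.H3.CharComplete Cfsg.Agent.H3.CharInd
  Cfsg.Agent.H3.CharBasic Cfsg.Agent.H10.BlockLoc
  Cfsg.Agent.H10.Char Cfsg.Agent.H10.BlockAlg Cfsg.Agent.H10.BlockIdem Cfsg.Agent.H10.BlockNormal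
  Cfsg.Agent.H10.BlockOrth Cfsg.Agent.H10.RegPart Cfsg.Agent.H10.BlockKer Cfsg.Agent.H10.PPart
open scoped ComplexConjugate

variable {G : Type*} [Group G] [Fintype G] {p : ℕ} {M M' : Ideal AlgInt}

open Classical in
/-- the indicator of the p-elements, times the index of a Sylow subgroup, is a generalized character -/
theorem pelt_gen [hp : Fact p.Prime] (P : Sylow p G) :
    IsGeneralizedCharacter G (fun g => if ppr p g = 1 then ((P : Subgroup G).index : ℂ) else 0) := by
  have h1 : IsGeneralizedCharacter G (indFun (P : Subgroup G) (fun _ => (1 : ℂ))) :=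
    IsGen.of_char (IsChar.ind IsChar.one)
  have h2 := regPart_gen' (p := p) h1
  convert h2 using 2 with g
  by_cases h : ppr p g = 1
  · rw [if_pos h, h, ind_one, mul_one]
  · rw [if_neg h, indFun, Finset.sum_eq_zero, mul_zero]
    intro x _
    apply ext_not_mem
    intro hx
    obtain ⟨y, -, -, -, hreg⟩ := ppr_spec (p := p) g
    obtain ⟨k, hk⟩ := (IsPGroup.iff_orderOf.1 P.isPGroup') ⟨_, hx⟩
    rw [Subgroup.orderOf_mk] at hk
    have e : orderOf (x⁻¹ * ppr p g * x) = orderOf (ppr p g) := by
      have := orderOf_conj x⁻¹ (ppr p g)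
      rwa [inv_inv] at this
    rw [e] at hk
    by_cases hk0 : k = 0
    · rw [hk0, pow_zero, orderOf_eq_one_iff] at hk
      exact h hk
    · apply hreg
      rw [hk]
      exact dvd_pow_self p hk0

theorem coeff_int [hp : Fact p.Prime] (hM' : IsPModular p M') (hM : IsPModular p M) {B : Set (IrrCharacter G)}
    (hB : IsPBlock M' B) (g : G) : MemLocalRing M (blockCoeff B g) := by
  classical
  haveI := hM.2.1
  haveI := hM'.2.1
  haveI : Fintype (IrrCharacter G) := Fintype.ofFinite _
  by_cases hg : p ∣ orderOf g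
  · rw [blockCoeff_eq_zero hM' hB g hg]; exact ring_zero
  obtain ⟨P⟩ : Nonempty (Sylow p G) := inferInstance
  set f : G → ℂ := fun g => if ppr p g = 1 then ((P : Subgroup G).index : ℂ) else 0 with hf
  have hgen : IsGeneralizedCharacter G f := pelt_gen P
  have hreg1 : ¬ p ∣ orderOf g⁻¹ := by rwa [orderOf_inv]
  have key : blockPart B f g⁻¹ = ((P : Subgroup G).index : ℂ) * blockCoeff B g := by
    rw [blockPart_apply, blockCoeff_eq_sum, mul_left_comm]
    congr 1
    rw [Finset.sum_eq_single 1]
    · have h1 : f 1 = ((P : Subgroup G).index : ℂ) := by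
        simp only [hf]
        rw [if_pos (ppr_regular (by rw [orderOf_one]; exact fun h => hp.out.one_lt.ne' (Nat.dvd_one.1 h)))]
      rw [h1]
      congr 1
      refine Finset.sum_congr rfl fun χ _ => ?_
      by_cases h : χ ∈ B
      · rw [if_pos h, if_pos h, IsChar.inv_eq_conj (isChar_of_irr χ.2), mul_comm]
        congr 1
        obtain ⟨n, -, hn⟩ := irr_one χ.2
        rw [hn, map_natCast]
      · rw [if_neg h, if_neg h]
    · intro x _ hx
      by_cases hxp : p ∣ orderOf x
      · rw [weak_orth hM' hB g⁻¹ x hreg1 hxp, mul_zero]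
      · have : f x = 0 := by
          simp only [hf]
          rw [ppr_regular hxp, if_neg hx]
        rw [this, zero_mul]
    · intro h; exact absurd (Finset.mem_univ _) h
  have h2 : MemLocalRing M (blockPart B f g⁻¹) := by
    unfold blockPart
    rw [finsum_mem_irr]
    refine ring_sum _ _ fun χ _ => ?_
    split_ifs
    · refine ring_mul ?_ (memLocalRing_of_integral (Ideal.IsPrime.ne_top inferInstance)
        (IsChar.isIntegral (isChar_of_irr χ.2) _))
      have e : (Fintype.ofFinite G) = (inferInstance : Fintype G) := Subsingleton.elim _ _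
      rw [e]
      obtain ⟨m, hm⟩ := ci_gen_int hgen (IsGen.of_irr χ.2)
      rw [hm]
      exact ring_intCast m
    · exact ring_zero
  have hidx : ((P : Subgroup G).index : ℂ) ≠ 0 := Nat.cast_ne_zero.2 (Subgroup.index_ne_zero_of_finite)
  have h3 : blockCoeff B g = ((P : Subgroup G).index : ℂ)⁻¹ * blockPart B f g⁻¹ := by
    rw [key, inv_mul_cancel_left₀ hidx]
  rw [h3]
  exact ring_mul (ring_inv_natCast hM P.not_dvd_index) h2

theorem sameBlock_indep [hp : Fact p.Prime] (hM' : IsPModular p M') (hM : IsPModular p M) {χ ψ : IrrCharacter G}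
    (h : SameBlock M (χ : G → ℂ) (ψ : G → ℂ)) : SameBlock M' (χ : G → ℂ) (ψ : G → ℂ) := by
  classical
  haveI := hM.2.1
  haveI := hM'.2.1
  have hB : IsPBlock M' (blockOf M' (χ : G → ℂ)) := isPBlock_blockOf χ
  have hz : eB (blockOf M' (χ : G → ℂ)) ∈ ZI G M := mem_ZI.2 fun g => by
    rw [eB_coeff]; exact coeff_int hM' hM hB g
  have h1 := om_sub_mem_of_sameBlock h hz
  rw [om_eB, om_eB, if_pos (mem_blockOf_self χ)] at h1
  by_contra hno
  have hno' : ψ ∉ blockOf M' (χ : G → ℂ) := hno
  rw [if_neg hno', sub_zero] at h1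
  exact one_notMem_ideal h1

end Cfsg.Agent.H10.BlockGal
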