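import Mathlib
import Cfsg.Prelude.Def_Blocks
import Cfsg.Agent.H10_BlockK
import Cfsg.Agent.H10_BlockKn
import Cfsg.Agent.H3_CharCalc

/-!
H10_BlockMono: monomial version of the vanishing of traces; characters of full relative degree
over a central p-subgroup (S0969).
-/

set_option autoImplicit false
set_option linter.style.haveILetI false
set_option linter.unusedSectionVars false

namespace Cfsg.Agent.H10.BlockMono

open Cfsg Cfsg.Agent.H3.CharIrr Cfsg.Agent.H3.CharComplete Cfsg.Agent.H3.CharInd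
  Cfsg.Agent.H3.CharBasic Cfsg.Agent.H10.BlockLoc
  Cfsg.Agent.H10.BlockTrace Cfsg.Agent.H10.Char Cfsg.Agent.H10.BlockAlg Cfsg.Agent.H10.BlockIdem
  Cfsg.Agent.H10.BlockOrth Cfsg.Agent.H10.BlockDefect Cfsg.Agent.H10.BlockNormal
  Cfsg.Agent.H10.BlockInd Cfsg.Agent.H10.BlockMain Cfsg.Agent.H10.PPart Cfsg.Agent.H10.BlockSMT
  Cfsg.Agent.H10.BlockSMT2 Cfsg.Agent.H10.BlockHZ Cfsg.Agent.H10.BlockK
open scoped ComplexConjugate

variable {p : ℕ} {M : Ideal AlgInt}

theorem trace_mono_zero (hM : IsPModular p M) {X : Type*} [Fintype X] [DecidableEq X]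
    (σ : Equiv.Perm X) (hσ : ∀ (x : X) (t : ℤ), (σ ^ t) x = x → (p : ℤ) ∣ t)
    (w : X → ℂ) (hw : ∀ a, MemLocalRing M (w a))
    (E : Matrix X X ℂ) (hE : ∀ i j, MemLocalRing M (E i j)) (hEE : E * E = E)
    (hcomm : ∀ a b, E (σ a) (σ b) * w b = w a * E a b) : ∑ a, E a (σ a) * w a = 0 := by
  haveI := hM.2.1
  haveI : Fact p.Prime := ⟨hM.1⟩
  obtain ⟨φ, hφ⟩ := exists_phase' p σ hσ
  let P : Matrix X X ℂ := Matrix.of fun a b => if a = σ b then w b else 0
  have hPa : ∀ a b, P a b = if a = σ b then w b else 0 := fun a b => rfl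
  have hEP : ∀ a b, (E * P) a b = E a (σ b) * w b := by
    intro a b
    rw [Matrix.mul_apply, Finset.sum_eq_single (σ b)]
    · rw [hPa, if_pos rfl]
    · intro c _ hc
      rw [hPa, if_neg hc, mul_zero]
    · intro h; exact absurd (Finset.mem_univ _) h
  have hPE : ∀ a b, (P * E) a b = w (σ.symm a) * E (σ.symm a) b := by
    intro a b
    rw [Matrix.mul_apply, Finset.sum_eq_single (σ.symm a)]
    · rw [hPa, Equiv.apply_symm_apply, if_pos rfl]
    · intro c _ hc
      rw [hPa, if_neg, zero_mul]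
      intro h
      apply hc
      rw [h, Equiv.symm_apply_apply]
    · intro h; exact absurd (Finset.mem_univ _) h
  have hcomm' : E * P = P * E := by
    ext a b
    rw [hEP, hPE]
    rw [← hcomm (σ.symm a) b, Equiv.apply_symm_apply]
  let D : ZMod p → Matrix X X ℂ := fun i => Matrix.diagonal (fun a => if φ a = i then 1 else 0)
  have hDP : ∀ i, D (i + 1) * P = P * D i := by
    intro i
    ext a b
    simp only [D, Matrix.diagonal_mul, Matrix.mul_diagonal, hPa]
    by_cases h : a = σ b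
    · subst h
      rw [hφ, if_pos rfl]
      by_cases h2 : φ b = i
      · simp [h2]
      · rw [if_neg h2, if_neg (fun h3 => h2 (add_right_cancel h3))]; simp
    · simp [h]
  have hDsum : ∑ i, D i = 1 := by
    ext a b
    rw [Matrix.sum_apply]
    simp only [D, Matrix.diagonal_apply, Matrix.one_apply]
    by_cases h : a = b
    · subst h; simp
    · simp [h]
  have hsum : ∑ i, (D i * E) = E := by rw [← Finset.sum_mul, hDsum, one_mul]
  have key : ∀ n : ℕ, ∃ s : ℂ, MemLocalRing M s ∧ ∑ a, E a (σ a) * w a = (p : ℂ) ^ n * s := by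
    have htr : Matrix.trace (E * P) = ∑ a, E a (σ a) * w a := by
      rw [Matrix.trace]
      refine Finset.sum_congr rfl fun a _ => ?_
      exact hEP a a
    intro n
    have h := trace_idem_div (Matrix.traceAddMonoidHom X ℂ) (fun A B => Matrix.trace_mul_comm A B) p
      (intMat X M) P (by
        intro a b; rw [hPa]; split_ifs
        · exact hw b
        · exact ring_zero) (fun i => D i * E)
      (by
        intro i a b
        simp only [D, Matrix.diagonal_mul]
        refine ring_mul ?_ (hE _ _)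
        split_ifs
        · exact ring_one
        · exact ring_zero)
      (by
        intro i
        change D (i+1) * E * P = P * (D i * E)
        rw [mul_assoc, hcomm', ← mul_assoc, hDP, mul_assoc])
      (by
        change (∑ i, D i * E) * (∑ i, D i * E) = ∑ i, D i * E
        rw [hsum, hEE]) n
    obtain ⟨s, hs, h⟩ := h
    rw [hsum] at h
    change Matrix.trace (E * P) = p ^ (n+1) • Matrix.trace s at h
    rw [htr] at h
    refine ⟨p * Matrix.trace s, ring_mul (ring_natCast _) (ring_sum _ _ fun a _ => hs a a), ?_⟩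
    rw [h, nsmul_eq_mul]
    push_cast
    ring
  exact eq_zero_of_forall_pow_mul hM key

variable {G : Type*} [Group G] [Fintype G]

theorem sum_conv {χ : G → ℂ} (hχ : IsIrrCharacter G χ) (a b : G) :
    ∑ h : G, χ (a * h) * χ (h⁻¹ * b) = (Nat.card G : ℂ) / χ 1 * χ (a * b) := by
  -- from the action of class functions: ∑_h χ(h⁻¹ b) ... via om of e_χ
  classical
  haveI : Fintype (IrrCharacter G) := Fintype.ofFinite _
  let X : IrrCharacter G := ⟨χ, hχ⟩
  -- lin χ (e_χ * single (b a)) = χ (b a)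
  have h1 := lin_eB_mul_of_mem (B := ({X} : Set (IrrCharacter G))) (χ := X) (Set.mem_singleton X)
    (MonoidAlgebra.single (b * a) (1:ℂ))
  rw [lin_single, one_mul, lin_apply] at h1
  have h2 : ∀ g : G, (((eB ({X} : Set (IrrCharacter G)) : ZC G) : MonoidAlgebra ℂ G) *
      MonoidAlgebra.single (b * a) (1:ℂ)).coeff g * χ g =
      (Nat.card G : ℂ)⁻¹ * χ 1 * (χ (a * (g⁻¹ * b)) * χ g) := by
    intro g
    rw [coeff_mul_single, eB_coeff, blockCoeff_singleton]
    show (Nat.card G : ℂ)⁻¹ * (χ 1 * conj (χ (g * (b * a)⁻¹))) * χ g = _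
    rw [← IsChar.inv_eq_conj (isChar_of_irr hχ)]
    have e : (g * (b * a)⁻¹)⁻¹ = b * a * g⁻¹ := by group
    rw [e]
    have e2 : χ (a * (g⁻¹ * b)) = χ (b * a * g⁻¹) := by
      have := irr_class hχ (a * (g⁻¹ * b)) b
      rw [← this]
      congr 1
      group
    rw [e2]; ring
  have h3 : χ (b * a) = (Nat.card G : ℂ)⁻¹ * χ 1 * ∑ g : G, χ (a * (g⁻¹ * b)) * χ g := by
    rw [Finset.mul_sum]
    refine h1.symm.trans ?_
    exact Finset.sum_congr rfl fun g _ => h2 g
  have h4 : ∑ g : G, χ (a * (g⁻¹ * b)) * χ g = ∑ h : G, χ (a * h) * χ (h⁻¹ * b) := by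
    rw [← Equiv.sum_comp ((Equiv.inv G).trans (Equiv.mulLeft b))]
    refine Finset.sum_congr rfl fun h _ => ?_
    simp only [Equiv.trans_apply, Equiv.inv_apply, Equiv.coe_mulLeft]
    have e1 : a * ((b * h⁻¹)⁻¹ * b) = a * h := by group
    have e2 : χ (b * h⁻¹) = χ (h⁻¹ * b) := by
      have := irr_class hχ (h⁻¹ * b) b
      rw [← this]
      congr 1
      group
    rw [e1, e2]
  rw [h4] at h3
  have h5 : χ (a * b) = χ (b * a) := by
    have := irr_class hχ (a * b) b
    rw [← this]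
    congr 1
    group
  rw [h5, h3]
  have h6 : (Nat.card G : ℂ) ≠ 0 := Nat.cast_ne_zero.2 Nat.card_pos.ne'
  have h7 := irr_one_ne hχ
  field_simp

/-- the vanishing part of S0969 -/
theorem vanish_of_degree [hp : Fact p.Prime] (hM : IsPModular p M) {D : Subgroup G} (hDZ : D ≤ Subgroup.center G)
    (χ : IrrCharacter G)
    (hdeg : (charDegree (χ : G → ℂ)).factorization p = D.index.factorization p)
    {g x : G} (hx : IsPPart p g x) (hxD : x ∉ D) : (χ : G → ℂ) g = 0 := by
  classical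
  haveI := hM.2.1
  haveI hDn : D.Normal := ⟨fun n hn y => by
    have h1 := Subgroup.mem_center_iff.1 (hDZ hn) y
    have : y * n * y⁻¹ = n := by rw [h1]; group
    rw [this]; exact hn⟩
  haveI : Fintype (G ⧸ D) := Fintype.ofFinite _
  -- the central character
  let mu : G → ℂ := fun d => (χ : G → ℂ) d / (χ : G → ℂ) 1
  have hχ1 := irr_one_ne χ.2
  have hmu : ∀ d ∈ D, (∀ h, (χ : G → ℂ) (h * d) = mu d * (χ : G → ℂ) h) ∧ IsIntegral ℤ (mu d) := by
    intro d hd
    obtain ⟨c, hc1, hc2⟩ := Cfsg.Agent.H3.CharInt.IsIrr.central χ.2 (hDZ hd)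
    have hcm : mu d = c := by
      show (χ : G → ℂ) d / (χ : G → ℂ) 1 = c
      have := hc2 1
      rw [one_mul] at this
      rw [this]; field_simp
    refine ⟨fun h => by rw [hcm]; exact hc2 h, ?_⟩
    rw [hcm]
    refine ⟨Polynomial.X ^ (orderOf d) - 1, ?_, ?_⟩
    · exact Polynomial.monic_X_pow_sub_C (1:ℤ) (orderOf_pos d).ne'
    · simp only [Polynomial.eval₂_sub, Polynomial.eval₂_X_pow, Polynomial.eval₂_one]
      rw [hc1, sub_self]
  have hmu_inv : ∀ d ∈ D, ∀ h, mu d * (χ : G → ℂ) (h * d⁻¹) = (χ : G → ℂ) h := by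
    intro d hd h
    rw [← (hmu d hd).1, inv_mul_cancel_right]
  let s : G ⧸ D → G := fun x => Quotient.out x
  have hs : ∀ x, (QuotientGroup.mk (s x) : G ⧸ D) = x := fun x => Quotient.out_eq' x
  let σ : Equiv.Perm (G ⧸ D) :=
    { toFun := fun x => (QuotientGroup.mk g : G ⧸ D) * x
      invFun := fun x => (QuotientGroup.mk g : G ⧸ D)⁻¹ * x
      left_inv := fun x => by simp
      right_inv := fun x => by simp }
  have hσ1 : ∀ x, σ x = (QuotientGroup.mk g : G ⧸ D) * x := fun x => rfl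
  have hσt : ∀ (x : G ⧸ D) (t : ℤ), (σ ^ t) x = (QuotientGroup.mk g : G ⧸ D) ^ t * x := by
    intro x t
    induction t using Int.induction_on with
    | zero => simp
    | succ n ih =>
      rw [add_comm, zpow_add, zpow_one, Equiv.Perm.mul_apply, ih, hσ1, zpow_add, zpow_one, mul_assoc]
    | pred n ih =>
      rw [show (-(n:ℤ) - 1) = -1 + -(n:ℤ) by ring, zpow_add, Equiv.Perm.mul_apply, ih, zpow_add, zpow_neg_one,
        zpow_neg_one, mul_assoc]
      rfl
  have hσ : ∀ (y : G ⧸ D) (t : ℤ), (σ ^ t) y = y → (p : ℤ) ∣ t := by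
    intro y t h
    by_contra hpt
    apply hxD
    have h1 : (QuotientGroup.mk g : G ⧸ D) ^ t = 1 := by
      rw [hσt] at h
      exact mul_eq_right.1 h
    have h2 : g ^ t ∈ D := by
      rw [← QuotientGroup.eq_one_iff, QuotientGroup.mk_zpow]
      exact h1
    exact (Subgroup.zpowers_le.2 h2) (ppart_mem_zpowers hx hpt)
  -- weights
  let d : G ⧸ D → G := fun x => (s (σ x))⁻¹ * g * s x
  have hd : ∀ x, d x ∈ D := by
    intro x
    rw [← QuotientGroup.eq_one_iff]
    show (QuotientGroup.mk ((s (σ x))⁻¹ * g * s x) : G ⧸ D) = 1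
    rw [QuotientGroup.mk_mul, QuotientGroup.mk_mul, QuotientGroup.mk_inv, hs, hs, hσ1]
    group
  have hsd : ∀ x, s (σ x) * d x = g * s x := by
    intro x
    show s (σ x) * ((s (σ x))⁻¹ * g * s x) = g * s x
    group
  let w : G ⧸ D → ℂ := fun x => mu (d x)
  have hcD : ∀ z ∈ D, ∀ y : G, y * z = z * y := fun z hz y => Subgroup.mem_center_iff.1 (hDZ hz) y
  let c : ℂ := (charDegree (χ : G → ℂ) : ℂ) / (D.index : ℂ)
  have hidx : D.index ≠ 0 := Subgroup.index_ne_zero_of_finite
  have hc : MemLocalRing M c := (ring_nat_div_iff hM (charDegree_pos χ.2).ne' hidx).2 hdeg.ge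
  let E : Matrix (G ⧸ D) (G ⧸ D) ℂ := Matrix.of fun y x => c * (χ : G → ℂ) ((s y)⁻¹ * s x)
  have hEa : ∀ y x, E y x = c * (χ : G → ℂ) ((s y)⁻¹ * s x) := fun y x => rfl
  have hE : ∀ i j, MemLocalRing M (E i j) := fun i j => ring_mul hc (char_mem_ring χ _)
  have hEE : E * E = E := by
    ext y x
    rw [Matrix.mul_apply, hEa]
    -- sum over G of the D-invariant function
    have h1 : ∀ h : G, (χ : G → ℂ) ((s y)⁻¹ * h) * (χ : G → ℂ) (h⁻¹ * s x) =
        (χ : G → ℂ) ((s y)⁻¹ * s (QuotientGroup.mk h)) * (χ : G → ℂ) ((s (QuotientGroup.mk h))⁻¹ * s x) := by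
      intro h
      have h2 : (s (QuotientGroup.mk h))⁻¹ * h ∈ D := by
        rw [← QuotientGroup.eq, hs]
      set z := (s (QuotientGroup.mk h))⁻¹ * h with hz
      have h3 : h = s (QuotientGroup.mk h) * z := by rw [hz]; group
      have h4 : (χ : G → ℂ) ((s y)⁻¹ * h) = mu z * (χ : G → ℂ) ((s y)⁻¹ * s (QuotientGroup.mk h)) := by
        conv_lhs => rw [h3, ← mul_assoc]
        exact (hmu z h2).1 _
      have h5 : (χ : G → ℂ) ((s (QuotientGroup.mk h))⁻¹ * s x) = mu z * (χ : G → ℂ) (h⁻¹ * s x) := by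
        rw [← (hmu z h2).1]
        congr 1
        have h6 : (s (QuotientGroup.mk h))⁻¹ = z * h⁻¹ := by rw [hz]; group
        rw [h6, mul_assoc, ← hcD z h2]
      rw [h4, h5]; ring
    have h2 := Cfsg.Agent.H10.BlockMono.sum_conv χ.2 (s y)⁻¹ (s x)
    rw [Finset.sum_congr rfl fun h _ => h1 h] at h2
    have h3 : ∑ h : G, (χ : G → ℂ) ((s y)⁻¹ * s (QuotientGroup.mk h)) * (χ : G → ℂ) ((s (QuotientGroup.mk h))⁻¹ * s x) =
        Nat.card D • ∑ z : G ⧸ D, (χ : G → ℂ) ((s y)⁻¹ * s z) * (χ : G → ℂ) ((s z)⁻¹ * s x) := by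
      rw [← Finset.sum_fiberwise (s := Finset.univ) (g := fun g : G => (QuotientGroup.mk g : G ⧸ D))]
      rw [Finset.smul_sum]
      refine Finset.sum_congr rfl fun z _ => ?_
      rw [Finset.sum_congr rfl (g := fun _ => (χ : G → ℂ) ((s y)⁻¹ * s z) * (χ : G → ℂ) ((s z)⁻¹ * s x))
        (fun g hg => by rw [(Finset.mem_filter.1 hg).2]), Finset.sum_const]
      congr 1
      haveI : Fintype D := Fintype.ofFinite _
      rw [Nat.card_eq_fintype_card, ← Finset.card_univ (α := D)]
      symm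
      apply Finset.card_bij (fun (n : D) _ => s z * (n : G))
      · intro n _
        rw [Finset.mem_filter]
        refine ⟨Finset.mem_univ _, ?_⟩
        rw [QuotientGroup.mk_mul, hs, (QuotientGroup.eq_one_iff (n : G)).2 n.2, mul_one]
      · intro a _ b _ h
        exact Subtype.ext (mul_left_cancel h)
      · intro g hg
        rw [Finset.mem_filter] at hg
        refine ⟨⟨(s z)⁻¹ * g, ?_⟩, Finset.mem_univ _, by simp⟩
        rw [← QuotientGroup.eq, hs]; exact hg.2.symm
    rw [h3, nsmul_eq_mul] at h2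
    have hDc : (Nat.card D : ℂ) ≠ 0 := Nat.cast_ne_zero.2 Nat.card_pos.ne'
    have hic : (D.index : ℂ) ≠ 0 := Nat.cast_ne_zero.2 hidx
    have h4 : (Nat.card G : ℂ) = (Nat.card D : ℂ) * (D.index : ℂ) := by
      rw [← Nat.cast_mul, D.card_mul_index]
    have h5 : ∑ j, E y j * E j x = c * c * ∑ z : G ⧸ D, (χ : G → ℂ) ((s y)⁻¹ * s z) * (χ : G → ℂ) ((s z)⁻¹ * s x) := by
      rw [Finset.mul_sum]
      refine Finset.sum_congr rfl fun z _ => ?_
      rw [hEa, hEa]; ring
    rw [h5]
    have h6 : ∑ z : G ⧸ D, (χ : G → ℂ) ((s y)⁻¹ * s z) * (χ : G → ℂ) ((s z)⁻¹ * s x) =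
        (D.index : ℂ) / (χ : G → ℂ) 1 * (χ : G → ℂ) ((s y)⁻¹ * s x) := by
      apply mul_left_cancel₀ hDc
      rw [h2, h4]; ring
    rw [h6]
    show (charDegree (χ : G → ℂ) : ℂ) / (D.index : ℂ) * ((charDegree (χ : G → ℂ) : ℂ) / (D.index : ℂ)) * _ =
      (charDegree (χ : G → ℂ) : ℂ) / (D.index : ℂ) * _
    rw [charDegree_eq χ.2]
    field_simp
  have hcomm : ∀ a b, E (σ a) (σ b) * w b = w a * E a b := by
    intro a b
    rw [hEa, hEa]
    have h1 : (χ : G → ℂ) ((s (σ a))⁻¹ * s (σ b)) * mu (d b) = mu (d a) * (χ : G → ℂ) ((s a)⁻¹ * s b) := by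
      rw [mul_comm, ← (hmu _ (hd b)).1, ← (hmu _ (hd a)).1]
      congr 1
      have h2 : (s (σ a))⁻¹ * s (σ b) * d b = (s (σ a))⁻¹ * (g * s b) := by rw [← hsd b]; group
      have h3 : (s (σ a))⁻¹ * g = d a * (s a)⁻¹ := by
        show (s (σ a))⁻¹ * g = (s (σ a))⁻¹ * g * s a * (s a)⁻¹
        group
      rw [h2, ← mul_assoc, h3, mul_assoc, hcD _ (hd a)]
    show c * (χ : G → ℂ) ((s (σ a))⁻¹ * s (σ b)) * mu (d b) = mu (d a) * (c * (χ : G → ℂ) ((s a)⁻¹ * s b))
    rw [mul_assoc, h1]; ring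
  have hfin := trace_mono_zero hM σ hσ w
    (fun a => memLocalRing_of_integral (Ideal.IsMaximal.ne_top inferInstance) (hmu _ (hd a)).2) E hE hEE hcomm
  have hterm : ∀ a, E a (σ a) * w a = c * (χ : G → ℂ) g := by
    intro a
    rw [hEa]
    have h1 : (χ : G → ℂ) ((s a)⁻¹ * s (σ a)) * mu (d a) = (χ : G → ℂ) g := by
      rw [mul_comm, ← (hmu _ (hd a)).1]
      have h2 : (s a)⁻¹ * s (σ a) * d a = (s a)⁻¹ * g * ((s a)⁻¹)⁻¹ := by
        rw [mul_assoc, hsd]; group
      rw [h2, irr_class χ.2]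
    show c * (χ : G → ℂ) ((s a)⁻¹ * s (σ a)) * mu (d a) = _
    rw [mul_assoc, h1]
  rw [Finset.sum_congr rfl fun a _ => hterm a, Finset.sum_const, nsmul_eq_mul] at hfin
  have hcard : ((Finset.univ : Finset (G ⧸ D)).card : ℂ) ≠ 0 := by
    rw [Finset.card_univ]; exact Nat.cast_ne_zero.2 Fintype.card_ne_zero
  have hc0 : c ≠ 0 := div_ne_zero (Nat.cast_ne_zero.2 (charDegree_pos χ.2).ne') (Nat.cast_ne_zero.2 hidx)
  exact ((mul_eq_zero.1 ((mul_eq_zero.1 hfin).resolve_left hcard)).resolve_left hc0)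

/-- S0969 -/
theorem laradji [hp : Fact p.Prime] (hM : IsPModular p M) {D : Subgroup G} (hD : IsPGroup p D)
    (hDZ : D ≤ Subgroup.center G) (χ : IrrCharacter G)
    (hdeg : (charDegree (χ : G → ℂ)).factorization p = D.index.factorization p) :
    IsDefectGroup p M (blockOf M (χ : G → ℂ)) D := by
  classical
  haveI := hM.2.1
  haveI : Fintype D := Fintype.ofFinite _
  set B := blockOf M (χ : G → ℂ) with hBdef
  have hB : IsPBlock M B := isPBlock_blockOf χ
  have hχB : χ ∈ B := mem_blockOf_self χ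
  haveI hDn : D.Normal := ⟨fun n hn y => by
    have h1 := Subgroup.mem_center_iff.1 (hDZ hn) y
    have : y * n * y⁻¹ = n := by rw [h1]; group
    rw [this]; exact hn⟩
  -- the p-regular sum
  set S := ∑ g : G, (if p ∣ orderOf g then 0 else (χ : G → ℂ) g⁻¹ * (χ : G → ℂ) g) with hS
  have hχ1 := irr_one_ne χ.2
  have htot : ∑ g : G, (χ : G → ℂ) g * (χ : G → ℂ) g⁻¹ = (Nat.card G : ℂ) := by
    have := sum_conv χ.2 1 1
    simp only [one_mul, mul_one] at this
    rw [this]; field_simp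
  have hF : ∀ (d : D) (y : G), (χ : G → ℂ) ((d : G) * y) * (χ : G → ℂ) ((d : G) * y)⁻¹ =
      (χ : G → ℂ) y⁻¹ * (χ : G → ℂ) y := by
    intro d y
    obtain ⟨c, hc1, hc2⟩ := Cfsg.Agent.H3.CharInt.IsIrr.central χ.2 (hDZ d.2)
    have h1 : (χ : G → ℂ) ((d : G) * y) = c * (χ : G → ℂ) y := by
      rw [← hc2, (Subgroup.mem_center_iff.1 (hDZ d.2) y)]
    have h2 : (χ : G → ℂ) y⁻¹ = c * (χ : G → ℂ) ((d : G) * y)⁻¹ := by
      rw [← hc2]
      congr 1
      group
    rw [h1, h2]; ring
  have hsum : (Nat.card D : ℂ) * S = (Nat.card G : ℂ) := by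
    rw [← htot]
    have h1 : ∑ x ∈ (Finset.univ : Finset D) ×ˢ (Finset.univ.filter (fun y : G => ¬ p ∣ orderOf y)),
        ((χ : G → ℂ) x.2⁻¹ * (χ : G → ℂ) x.2) = ∑ g : G, (χ : G → ℂ) g * (χ : G → ℂ) g⁻¹ := by
      apply Finset.sum_of_injOn (fun x : D × G => (x.1 : G) * x.2)
      · rintro ⟨d, y⟩ hx ⟨d', y'⟩ hx' h
        simp only [Finset.coe_product, Set.mem_prod, Finset.mem_coe, Finset.mem_filter, Finset.mem_univ,
          true_and] at hx hx'
        have hc : ∀ (d : D) (y : G), Commute (d : G) y := fun d y =>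
          (Subgroup.mem_center_iff.1 (hDZ d.2) y).symm
        have hdp : ∀ d : D, ∃ k : ℕ, orderOf (d : G) = p ^ k := by
          intro d
          obtain ⟨k, hk⟩ := IsPGroup.iff_orderOf.1 hD d
          exact ⟨k, by rw [Subgroup.orderOf_coe]; exact hk⟩
        have := parts_unique h (hc d y) (hc d' y') (hdp d) (hdp d') hx hx'
        exact Prod.ext (Subtype.ext this.1) this.2
      · intro x _
        exact Finset.mem_coe.2 (Finset.mem_univ _)
      · intro g _ hg
        have : (χ : G → ℂ) g = 0 := by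
          obtain ⟨x, y, h1, h2, h3, h4⟩ := exists_ppart (p := p) g
          apply vanish_of_degree hM hDZ χ hdeg (x := x) ⟨y, h1, h2, h3, h4⟩
          intro hxD
          apply hg
          refine ⟨(⟨x, hxD⟩, y), ?_, h1⟩
          simp only [Finset.coe_product, Set.mem_prod, Finset.mem_coe, Finset.mem_filter, Finset.mem_univ,
            true_and]
          exact h4
        rw [this, zero_mul]
      · intro x _
        exact (hF x.1 x.2).symm
    rw [← h1, Finset.sum_product]
    simp only []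
    rw [Finset.sum_const, nsmul_eq_mul, Finset.card_univ, Nat.card_eq_fintype_card]
    congr 1
    rw [hS, Finset.sum_filter]
    refine Finset.sum_congr rfl fun g _ => ?_
    by_cases h : p ∣ orderOf g
    · rw [if_pos h, if_neg (not_not.2 h)]
    · rw [if_neg h, if_pos h]
  have hDc : (Nat.card D : ℂ) ≠ 0 := Nat.cast_ne_zero.2 Nat.card_pos.ne'
  have hSv : S = (D.index : ℂ) := by
    have h4 : (Nat.card G : ℂ) = (Nat.card D : ℂ) * (D.index : ℂ) := by
      rw [← Nat.cast_mul, D.card_mul_index]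
    rw [h4] at hsum
    exact mul_left_cancel₀ hDc hsum
  have hom : om χ (zchi p χ) = (D.index : ℂ) / (charDegree (χ : G → ℂ) : ℂ) := by
    unfold zchi
    rw [om_zreg, ← hS, hSv, charDegree_eq χ.2]
  have hidx : D.index ≠ 0 := Subgroup.index_ne_zero_of_finite
  have hunit : ¬ MemLocalIdeal M (om χ (zchi p χ)) := by
    rw [hom]
    exact not_ideal_nat_div hM hidx (charDegree_pos χ.2).ne' hdeg
  have h0 := height_zero_of_unit hM hB hχB hχB hunit
  obtain ⟨P, hP⟩ := exists_defectGroup (p := p) hB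
  have hle : D ≤ P := normal_le_defectGroup hM hB hP D hD
  have hcard := card_defectGroup hM hB hP
  have hbd : blockDefect p B = (Nat.card D).factorization p := by
    unfold blockDefect
    unfold blockHeight at h0
    have h1 : sInf ((fun ψ : IrrCharacter G => (charDegree (ψ : G → ℂ)).factorization p) '' B) ≤
      (charDegree (χ : G → ℂ)).factorization p := Nat.sInf_le ⟨χ, hχB, rfl⟩
    have h2 : (Nat.card G).factorization p = (Nat.card D).factorization p + D.index.factorization p := by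
      rw [← D.card_mul_index, Nat.factorization_mul Nat.card_pos.ne' hidx, Finsupp.add_apply]
    omega
  have hDcard : Nat.card D = p ^ (Nat.card D).factorization p := by
    obtain ⟨k, hk⟩ := IsPGroup.iff_card.1 hD
    rw [hk, Nat.factorization_pow, Finsupp.smul_apply, Nat.Prime.factorization_self hp.out, smul_eq_mul, mul_one]
  have : D = P := eq_of_le_card hle (by rw [hcard, hbd, ← hDcard])
  rw [this]; exact hP

end Cfsg.Agent.H10.BlockMono
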