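import Mathlib
import Cfsg.Prelude.Def_Characters
import Cfsg.Prelude.Def_Blocks
import Cfsg.Prelude.Def_Transfer
import Cfsg.Agent.H26_Cliff
import Cfsg.Agent.H10_CycTI
import Cfsg.Agent.H1_Deg
import Cfsg.Agent.H1_Basic

set_option autoImplicit false

/-! Elementary abelian by 2-group: real induced characters (H10). -/

open scoped ComplexConjugate

namespace Cfsg.Agent.H10.EAP

open Cfsg Cfsg.Agent Cfsg.Agent.H3.CharBasic Cfsg.Agent.H3.CharIrr Cfsg.Agent.H3.CharInd Cfsg.Agent.H3.Clifford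
open Cfsg.Agent.H1.Basic

theorem setup {G : Type*} [Group G] [Finite G] (N P : Subgroup G) (hN : N.Normal) (hab : ∀ a ∈ N, ∀ b ∈ N, a * b = b * a)
    (hP : IsPGroup 2 ↥P) (hP1 : P ≠ ⊥) (hdisj : N ⊓ P = ⊥) (hprod : N ⊔ P = ⊤) (hN1 : N ≠ ⊥)
    (hmin : ∀ M : Subgroup G, M.Normal → M ≠ ⊥ → N ≤ M) :
    ∃ z ∈ P, z * z = 1 ∧ (∀ x ∈ P, x * z = z * x) ∧ ∀ n ∈ N, z * n * z⁻¹ = n⁻¹ := by
  have hdec : ∀ g : G, ∃ n ∈ N, ∃ x ∈ P, n * x = g := by
    intro g
    have : g ∈ N ⊔ P := by rw [hprod]; exact Subgroup.mem_top _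
    exact Subgroup.mem_sup_of_normal_left.1 this
  haveI : Nontrivial P := (Subgroup.nontrivial_iff_ne_bot P).2 hP1
  haveI := hP.center_nontrivial
  have hZ : IsPGroup 2 (Subgroup.center P) := hP.to_subgroup _
  obtain ⟨k, hk0, hk⟩ := (IsPGroup.nontrivial_iff_card hZ).1 inferInstance
  obtain ⟨⟨⟨z, hzP⟩, hzc⟩, hz2⟩ := exists_prime_orderOf_dvd_card' (G := Subgroup.center P) 2 (by rw [hk]; exact dvd_pow_self 2 hk0.ne')
  have hzc' : ∀ x ∈ P, x * z = z * x := by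
    intro x hx
    exact congrArg Subtype.val (Subgroup.mem_center_iff.1 hzc ⟨x, hx⟩)
  have hzz : z * z = 1 := by
    have h1 := pow_orderOf_eq_one (⟨⟨z, hzP⟩, hzc⟩ : Subgroup.center P)
    rw [hz2, sq] at h1
    exact congrArg (fun x : Subgroup.center P => ((x : P) : G)) h1
  have hz1 : z ≠ 1 := by
    intro h
    subst h
    have : (⟨⟨1, hzP⟩, hzc⟩ : Subgroup.center P) = 1 := rfl
    rw [this, orderOf_one] at hz2
    exact absurd hz2 (by norm_num)
  refine ⟨z, hzP, hzz, hzc', ?_⟩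
  -- the centralizer of `z` in `N` is trivial
  have hC : N ⊓ Subgroup.centralizer {z} = ⊥ := by
    by_contra hne
    have hnorm : (N ⊓ Subgroup.centralizer {z}).Normal := by
      constructor
      rintro m ⟨hmN, hmz⟩ g
      obtain ⟨n, hn, x, hx, rfl⟩ := hdec g
      have hmz' : z * m = m * z := Subgroup.mem_centralizer_iff.1 hmz z rfl
      have h1 : x * m * x⁻¹ ∈ N := hN.conj_mem m hmN x
      have h2 : n * x * m * (n * x)⁻¹ = x * m * x⁻¹ := by
        have := hab n hn _ h1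
        calc n * x * m * (n * x)⁻¹ = n * (x * m * x⁻¹) * n⁻¹ := by group
          _ = x * m * x⁻¹ * n * n⁻¹ := by rw [this]
          _ = _ := by group
      rw [h2]
      refine ⟨h1, Subgroup.mem_centralizer_iff.2 ?_⟩
      intro y hy
      rw [Set.mem_singleton_iff.1 hy]
      have hxz := hzc' x hx
      have hxz' : z * x⁻¹ = x⁻¹ * z := by
        rw [eq_inv_mul_iff_mul_eq, ← mul_assoc, hxz, mul_assoc, mul_inv_cancel, mul_one]
      calc z * (x * m * x⁻¹) = (z * x) * m * x⁻¹ := by group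
        _ = (x * z) * m * x⁻¹ := by rw [hxz]
        _ = x * (z * m) * x⁻¹ := by group
        _ = x * (m * z) * x⁻¹ := by rw [hmz']
        _ = x * m * (z * x⁻¹) := by group
        _ = x * m * (x⁻¹ * z) := by rw [hxz']
        _ = x * m * x⁻¹ * z := by group
    have hle := hmin _ hnorm hne
    have hnorm2 : (P ⊓ Subgroup.centralizer (N : Set G)).Normal := by
      constructor
      rintro m ⟨hmP, hmN⟩ g
      obtain ⟨n, hn, x, hx, rfl⟩ := hdec g
      have h1 : x * m * x⁻¹ ∈ Subgroup.centralizer (N : Set G) := by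
        haveI : (Subgroup.centralizer (N : Set G)).Normal := inferInstance
        exact this.conj_mem m hmN x
      have h2 : n * x * m * (n * x)⁻¹ = x * m * x⁻¹ := by
        have := Subgroup.mem_centralizer_iff.1 h1 n hn
        calc n * x * m * (n * x)⁻¹ = n * (x * m * x⁻¹) * n⁻¹ := by group
          _ = x * m * x⁻¹ * n * n⁻¹ := by rw [this]
          _ = _ := by group
      rw [h2]
      exact ⟨P.mul_mem (P.mul_mem hx hmP) (P.inv_mem hx), h1⟩
    have hzm : z ∈ P ⊓ Subgroup.centralizer (N : Set G) := by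
      refine ⟨hzP, Subgroup.mem_centralizer_iff.2 ?_⟩
      intro n hn
      exact (Subgroup.mem_centralizer_iff.1 (hle hn).2 z rfl).symm
    have h3 := hmin _ hnorm2 (by
      intro h
      rw [h] at hzm
      exact hz1 (Subgroup.mem_bot.1 hzm))
    apply hN1
    rw [eq_bot_iff, ← hdisj]
    exact le_inf le_rfl (h3.trans inf_le_left)
  intro n hn
  have hzi : z⁻¹ = z := by rw [inv_eq_iff_mul_eq_one]; exact hzz
  have h1 : z * n * z⁻¹ ∈ N := hN.conj_mem n hn z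
  have h2 : z * n * z⁻¹ * n ∈ N ⊓ Subgroup.centralizer {z} := by
    refine ⟨N.mul_mem h1 hn, Subgroup.mem_centralizer_iff.2 ?_⟩
    intro y hy
    rw [Set.mem_singleton_iff.1 hy]
    have h3 := hab _ h1 _ hn
    rw [hzi] at h3 ⊢
    calc z * (z * n * z * n) = (z * z) * (n * (z * n)) := by group
      _ = n * (z * n) := by rw [hzz, one_mul]
      _ = n * (z * n) * (z * z) := by rw [hzz, mul_one]
      _ = (n * (z * n * z)) * z := by group
      _ = z * n * z * n * z := by rw [← h3]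
  rw [hC] at h2
  exact eq_inv_of_mul_eq_one_left (Subgroup.mem_bot.1 h2)

theorem exists_retr {G : Type*} [Group G] [Finite G] (N P : Subgroup G) (hN : N.Normal) (hdisj : N ⊓ P = ⊥) (hprod : N ⊔ P = ⊤) :
    ∃ π : G →* G, (∀ g, π g ∈ P) ∧ (∀ g, g * (π g)⁻¹ ∈ N) ∧ (∀ x ∈ P, π x = x) ∧ (∀ n ∈ N, π n = 1) := by
  have hc : P.IsComplement' N := by
    have h1 : N.IsComplement' P := Subgroup.isComplement'_of_disjoint_and_mul_eq_univ (disjoint_iff.2 hdisj) (by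
      rw [← Subgroup.normal_mul, hprod]; rfl)
    exact h1.symm
  let e : G ⧸ N ≃* P := hc.QuotientMulEquiv
  let π : G →* G := P.subtype.comp (e.toMonoidHom.comp (QuotientGroup.mk' N))
  have h1 : ∀ g, π g ∈ P := fun g => (e (QuotientGroup.mk' N g)).2
  have hes : ∀ x : P, e.symm x = QuotientGroup.mk' N (x : G) := fun x => rfl
  have h2 : ∀ g, g * (π g)⁻¹ ∈ N := by
    intro g
    have h3 : QuotientGroup.mk' N (π g) = QuotientGroup.mk' N g := by
      have h4 := hes (e (QuotientGroup.mk' N g))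
      rw [MulEquiv.symm_apply_apply] at h4
      exact h4.symm
    rw [← QuotientGroup.eq_one_iff, ← QuotientGroup.mk'_apply, map_mul, map_inv, h3, mul_inv_cancel]
  have h5 : ∀ x, x ∈ N → x ∈ P → x = 1 := by
    intro x hx hx'
    have : x ∈ N ⊓ P := ⟨hx, hx'⟩
    rw [hdisj] at this
    exact Subgroup.mem_bot.1 this
  refine ⟨π, h1, h2, ?_, ?_⟩
  · intro x hx
    exact (mul_inv_eq_one.1 (h5 _ (h2 x) (P.mul_mem hx (P.inv_mem (h1 x))))).symm
  · intro n hn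
    apply h5 _ _ (h1 n)
    have h6 := N.mul_mem (N.inv_mem hn) (h2 n)
    rw [inv_mul_cancel_left] at h6
    exact (N.inv_mem_iff).1 h6

section

variable {G : Type*} [Group G] [Fintype G] {N : Subgroup G} (hN : N.Normal) (lam : N →* ℂˣ)

theorem mem_T {g : G} : g ∈ inertia hN (fun n => (lam n : ℂ)) ↔ ∀ n : N, lam ⟨g * n * g⁻¹, hN.conj_mem n n.2 g⟩ = lam n := by
  rw [mem_inertia]
  constructor
  · intro h n
    have := congrFun h n
    rw [cj_apply] at this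
    exact Units.ext this
  · intro h
    funext n
    rw [cj_apply, h]

theorem exists_ext (z : G) (hinv : ∀ n ∈ N, z * n * z⁻¹ = n⁻¹) (hzz : z * z = 1) (π : G →* G)
    (hπN : ∀ g, g * (π g)⁻¹ ∈ N) (hπ1 : ∀ n ∈ N, π n = 1) (hπz : ∀ g, π (z⁻¹ * g * z) = z⁻¹ * π g * z)
    (T : Subgroup G) (hT : T = inertia hN (fun n => (lam n : ℂ))) (hNT : N ≤ T) :
    ∃ L : T →* ℂˣ, (∀ n (hn : n ∈ N), L ⟨n, hNT hn⟩ = lam ⟨n, hn⟩) ∧
      (∀ t : T, ∀ h, L ⟨z⁻¹ * t * z, h⟩ = (L t)⁻¹) := by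
  have hπT : ∀ t : T, π (t : G) ∈ T := by
    intro t
    have h1 := T.mul_mem (T.inv_mem (hNT (hπN t))) t.2
    have h2 : ((t : G) * (π t)⁻¹)⁻¹ * t = π t := by group
    rwa [h2] at h1
  have hzi : z⁻¹ = z := by rw [inv_eq_iff_mul_eq_one]; exact hzz
  have hTT : ∀ g, g ∈ T → g ∈ inertia hN (fun n => (lam n : ℂ)) := fun g hg => by rw [← hT]; exact hg
  let L : T →* ℂˣ :=
    { toFun := fun t => lam ⟨(t : G) * (π t)⁻¹, hπN t⟩
      map_one' := by
        rw [← map_one lam]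
        congr 1
        apply Subtype.ext
        simp
      map_mul' := by
        intro s t
        have h1 := (mem_T hN lam).1 (hTT _ (hπT s))
        have h2 := h1 ⟨(t : G) * (π t)⁻¹, hπN t⟩
        rw [← h2, ← map_mul]
        congr 1
        apply Subtype.ext
        show (s : G) * t * (π (s * t))⁻¹ = (s * (π s)⁻¹) * (π s * (t * (π t)⁻¹) * (π s)⁻¹)
        rw [map_mul]
        group }
  refine ⟨L, ?_, ?_⟩
  · intro n hn
    show lam ⟨n * (π n)⁻¹, _⟩ = _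
    congr 1
    apply Subtype.ext
    show n * (π n)⁻¹ = n
    rw [hπ1 n hn, inv_one, mul_one]
  · intro t h
    show lam ⟨z⁻¹ * t * z * (π (z⁻¹ * t * z))⁻¹, _⟩ = (lam ⟨(t : G) * (π t)⁻¹, hπN t⟩)⁻¹
    rw [← map_inv lam]
    congr 1
    apply Subtype.ext
    show z⁻¹ * t * z * (π (z⁻¹ * t * z))⁻¹ = ((t : G) * (π t)⁻¹)⁻¹
    rw [hπz, ← hinv _ (hπN t), hzi]
    have : (z * π t * z)⁻¹ = z⁻¹ * (π t)⁻¹ * z⁻¹ := by group
    rw [this, hzi]
    calc z * t * z * (z * (π t)⁻¹ * z) = z * t * (z * z) * (π t)⁻¹ * z := by group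
      _ = _ := by rw [hzz]; group

theorem conj_mem_T (z : G) (hinv : ∀ n ∈ N, z * n * z⁻¹ = n⁻¹) (hzz : z * z = 1)
    (T : Subgroup G) (hT : T = inertia hN (fun n => (lam n : ℂ))) {t : G} (ht : t ∈ T) : z⁻¹ * t * z ∈ T := by
  have hzi : z⁻¹ = z := by rw [inv_eq_iff_mul_eq_one]; exact hzz
  rw [hT, mem_T] at ht ⊢
  intro n
  have h1 := ht n⁻¹
  rw [map_inv, ← inv_inj, inv_inv, ← map_inv] at h1
  rw [← h1]
  congr 1
  apply Subtype.ext
  show z⁻¹ * t * z * n * (z⁻¹ * t * z)⁻¹ = (t * ((n : G)⁻¹) * t⁻¹)⁻¹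
  have h2 : t * ((n : G)⁻¹) * t⁻¹ ∈ N := hN.conj_mem _ (N.inv_mem n.2) t
  rw [← hinv _ h2, ← hinv _ n.2, hzi]
  have : (z * t * z)⁻¹ = z⁻¹ * t⁻¹ * z⁻¹ := by group
  rw [this, hzi]
  group

theorem indicator [Fintype N] (z : G) (hinv : ∀ n ∈ N, z * n * z⁻¹ = n⁻¹) (hzz : z * z = 1)
    (T : Subgroup G) [Fintype T] (hT : T = inertia hN (fun n => (lam n : ℂ))) (hNT : N ≤ T)
    (θ : T →* ℂˣ) (hθN : ∀ n (hn : n ∈ N), θ ⟨n, hNT hn⟩ = lam ⟨n, hn⟩)
    (hθz : ∀ t : T, ∀ h, θ ⟨z⁻¹ * t * z, h⟩ * θ t = 1) :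
    (Nat.card G : ℂ)⁻¹ * ∑ g : G, indFun T (fun t => (θ t : ℂ)) (g * g) = 1 := by
  classical
  have hzi : z⁻¹ = z := by rw [inv_eq_iff_mul_eq_one]; exact hzz
  have hG0 : (Nat.card G : ℂ) ≠ 0 := by exact_mod_cast Nat.card_pos.ne'
  have hT0 : (Nat.card T : ℂ) ≠ 0 := by exact_mod_cast Nat.card_pos.ne'
  have hN0 : (Nat.card N : ℂ) ≠ 0 := by exact_mod_cast Nat.card_pos.ne'
  set E : G → ℂ := extendByZero T (fun t => (θ t : ℂ)) with hE
  -- step 1
  have e1 : ∑ g : G, indFun T (fun t => (θ t : ℂ)) (g * g) = (Nat.card T : ℂ)⁻¹ * ((Nat.card G : ℂ) * ∑ g : G, E (g * g)) := by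
    simp only [indFun]
    rw [← Finset.mul_sum]
    congr 1
    rw [Finset.sum_comm]
    have h1 : ∀ x : G, ∑ g : G, extendByZero T (fun t => (θ t : ℂ)) (x⁻¹ * (g * g) * x) = ∑ g : G, E (g * g) := by
      intro x
      rw [← Equiv.sum_comp (MulAut.conj x).toEquiv]
      refine Finset.sum_congr rfl fun g _ => ?_
      show E (x⁻¹ * ((x * g * x⁻¹) * (x * g * x⁻¹)) * x) = _
      congr 1
      group
    rw [Finset.sum_congr rfl (fun x _ => h1 x), Finset.sum_const, Finset.card_univ, nsmul_eq_mul, ← Nat.card_eq_fintype_card]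
  -- step 2
  have hEN : ∀ (g : G) (n : N), E (g * n) = E g * lam n := by
    intro g n
    by_cases hg : g ∈ T
    · rw [hE, ext_mem T _ hg, ext_mem T _ (T.mul_mem hg (hNT n.2))]
      have h1 : (⟨g * n, T.mul_mem hg (hNT n.2)⟩ : T) = ⟨g, hg⟩ * ⟨n, hNT n.2⟩ := rfl
      rw [h1, map_mul, hθN n n.2, Units.val_mul]
    · rw [hE, ext_not_mem T _ hg, ext_not_mem T _ (by rwa [T.mul_mem_cancel_right (hNT n.2)]), zero_mul]
  have hiff : ∀ g : G, (∀ n : N, lam ⟨g⁻¹ * n * g⁻¹⁻¹, hN.conj_mem n n.2 g⁻¹⟩ * lam n = 1) ↔ z⁻¹ * g ∈ T := by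
    intro g
    have key : ∀ n : N, (⟨(z⁻¹ * g)⁻¹ * n * (z⁻¹ * g)⁻¹⁻¹, hN.conj_mem n n.2 _⟩ : N) = ⟨g⁻¹ * n * g⁻¹⁻¹, hN.conj_mem n n.2 g⁻¹⟩⁻¹ := by
      intro n
      apply Subtype.ext
      show (z⁻¹ * g)⁻¹ * n * (z⁻¹ * g)⁻¹⁻¹ = (g⁻¹ * n * g⁻¹⁻¹)⁻¹
      calc (z⁻¹ * g)⁻¹ * n * (z⁻¹ * g)⁻¹⁻¹ = g⁻¹ * (z * n * z⁻¹) * g := by group
        _ = g⁻¹ * (n : G)⁻¹ * g := by rw [hinv _ n.2]
        _ = _ := by group
    rw [← T.inv_mem_iff]
    conv_rhs => rw [hT]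
    rw [mem_T]
    refine forall_congr' fun n => ?_
    rw [key, map_inv, inv_eq_iff_eq_inv, mul_eq_one_iff_eq_inv]
  have hδ : ∀ g : G, ∑ n : N, (lam ⟨g⁻¹ * n * g⁻¹⁻¹, hN.conj_mem n n.2 g⁻¹⟩ : ℂ) * lam n = if z⁻¹ * g ∈ T then (Nat.card N : ℂ) else 0 := by
    intro g
    let f : N →* ℂ :=
      { toFun := fun n => (lam ⟨g⁻¹ * n * g⁻¹⁻¹, hN.conj_mem n n.2 g⁻¹⟩ : ℂ) * lam n
        map_one' := by
          have h1 : (⟨g⁻¹ * (1 : N) * g⁻¹⁻¹, hN.conj_mem _ (1 : N).2 g⁻¹⟩ : N) = 1 := Subtype.ext (by simp)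
          rw [h1, map_one]; simp
        map_mul' := by
          intro a b
          have h1 : (⟨g⁻¹ * (a * b : N) * g⁻¹⁻¹, hN.conj_mem _ (a * b : N).2 g⁻¹⟩ : N) =
              ⟨g⁻¹ * a * g⁻¹⁻¹, hN.conj_mem _ a.2 g⁻¹⟩ * ⟨g⁻¹ * b * g⁻¹⁻¹, hN.conj_mem _ b.2 g⁻¹⟩ := Subtype.ext (by
            show g⁻¹ * (a * b) * g⁻¹⁻¹ = (g⁻¹ * a * g⁻¹⁻¹) * (g⁻¹ * b * g⁻¹⁻¹)
            group)
          rw [h1, map_mul, map_mul, Units.val_mul, Units.val_mul]
          ring }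
    have h2 : ∑ n : N, f n = if f = 1 then (Fintype.card N : ℂ) else 0 := by
      rw [sum_hom_units]
      split_ifs <;> simp
    have h3 : f = 1 ↔ z⁻¹ * g ∈ T := by
      rw [← hiff]
      constructor
      · intro h n
        have := DFunLike.congr_fun h n
        apply Units.ext
        rw [Units.val_mul, Units.val_one]
        exact this
      · intro h
        ext n
        have := congrArg Units.val (h n)
        rw [Units.val_mul, Units.val_one] at this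
        exact this
    have h4 : ∑ n : N, (lam ⟨g⁻¹ * n * g⁻¹⁻¹, hN.conj_mem n n.2 g⁻¹⟩ : ℂ) * lam n = ∑ n : N, f n := rfl
    rw [h4, h2, Nat.card_eq_fintype_card]
    simp only [h3]
  have e2 : (Nat.card N : ℂ) * ∑ g : G, E (g * g) = ∑ g : G, E (g * g) * (if z⁻¹ * g ∈ T then (Nat.card N : ℂ) else 0) := by
    have h1 : ∀ n : N, ∑ g : G, E (g * g) = ∑ g : G, E (g * g) * ((lam ⟨g⁻¹ * n * g⁻¹⁻¹, hN.conj_mem n n.2 g⁻¹⟩ : ℂ) * lam n) := by
      intro n
      rw [← Equiv.sum_comp (Equiv.mulRight (n : G))]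
      refine Finset.sum_congr rfl fun g _ => ?_
      show E (g * n * (g * n)) = _
      have h2 : g * n * (g * n) = g * g * ((⟨g⁻¹ * n * g⁻¹⁻¹, hN.conj_mem n n.2 g⁻¹⟩ * n : N) : G) := by
        show g * n * (g * n) = g * g * ((g⁻¹ * n * g⁻¹⁻¹) * n)
        group
      rw [h2, hEN, map_mul, Units.val_mul]
    have h2 : (Nat.card N : ℂ) * ∑ g : G, E (g * g) = ∑ n : N, ∑ g : G, E (g * g) := by
      rw [Finset.sum_const, Finset.card_univ, nsmul_eq_mul, ← Nat.card_eq_fintype_card]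
    rw [h2, Finset.sum_congr rfl (fun n _ => h1 n), Finset.sum_comm]
    refine Finset.sum_congr rfl fun g _ => ?_
    rw [← Finset.mul_sum, hδ]
  have e3 : ∑ g : G, E (g * g) * (if z⁻¹ * g ∈ T then (Nat.card N : ℂ) else 0) = (Nat.card N : ℂ) * Nat.card T := by
    rw [← Equiv.sum_comp (Equiv.mulLeft z)]
    have h1 : ∀ g : G, E (Equiv.mulLeft z g * Equiv.mulLeft z g) * (if z⁻¹ * (Equiv.mulLeft z g) ∈ T then (Nat.card N : ℂ) else 0) =
        if g ∈ T then (Nat.card N : ℂ) else 0 := by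
      intro g
      rw [Equiv.coe_mulLeft, inv_mul_cancel_left]
      split_ifs with hg
      · have h2 : z * g * (z * g) = (z⁻¹ * g * z) * g := by rw [hzi]; group
        have h3 := conj_mem_T hN lam z hinv hzz T hT hg
        rw [h2, hE, ext_mem T _ (T.mul_mem h3 hg)]
        have h4 := hθz ⟨g, hg⟩ h3
        rw [← map_mul] at h4
        have h5 : ((θ ⟨z⁻¹ * g * z * g, T.mul_mem h3 hg⟩ : ℂˣ) : ℂ) = 1 := by
          have := congrArg Units.val h4
          rw [Units.val_one] at this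
          exact this
        rw [h5, one_mul]
      · rw [mul_zero]
    rw [Finset.sum_congr rfl (fun g _ => h1 g), Finset.sum_ite, Finset.sum_const_zero, add_zero, Finset.sum_const, nsmul_eq_mul, mul_comm]
    congr 2
    rw [Nat.card_eq_fintype_card, Fintype.card_subtype]
  have e4 : ∑ g : G, E (g * g) = Nat.card T := by
    rw [e3] at e2
    exact mul_left_cancel₀ hN0 e2
  rw [e1, e4]
  field_simp

end

end Cfsg.Agent.H10.EAP
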