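import Mathlib
import Cfsg.Agent.H1_SZ
import Cfsg.Agent.H1_Nilp
import Cfsg.Agent.H1_FratFit
import Cfsg.Agent.H22_PSolv
import Cfsg.Agent.H11_Cores
import Cfsg.Agent.H1_Hall

set_option autoImplicit false

/-! Normal subgroups inside the Frattini subgroup (H10). -/

namespace Cfsg.Agent.H10.FratQ

open Cfsg Cfsg.Agent Cfsg.Agent.H1.Basic
open scoped Pointwise commutatorElement

/-- normal subgroups above a normal subgroup of the Frattini subgroup of coprime index split -/
theorem split {H : Type*} [Group H] [Finite H] {F L : Subgroup H} [hF : F.Normal] [hL : L.Normal] (hFL : F ≤ L)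
    (hFf : F ≤ frattini H) (hcop : (Nat.card F).Coprime (F.relIndex L)) (hsol : Group.IsSolvable F) :
    ∃ C : Subgroup H, C.Normal ∧ C ≤ L ∧ C ⊔ F = L ∧ Nat.card C = F.relIndex L := by
  classical
  set F' := F.subgroupOf L with hF'
  haveI : F'.Normal := inferInstance
  have hcard : Nat.card F' = Nat.card F := Nat.card_congr (Subgroup.subgroupOfEquivOfLe hFL).toEquiv
  have hcop' : (Nat.card F').Coprime F'.index := by rw [hcard]; exact hcop
  have hsol' : Group.IsSolvable F' :=
    Group.isSolvable_of_isSolvable_injective (f := (Subgroup.subgroupOfEquivOfLe hFL).toMonoidHom)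
      (Subgroup.subgroupOfEquivOfLe hFL).injective
  obtain ⟨C', hC'⟩ := Subgroup.exists_right_complement'_of_coprime hcop'
  set C := C'.map L.subtype with hC
  have hCL : C ≤ L := Subgroup.map_subtype_le _
  have hnorm : Subgroup.normalizer (C : Set H) ⊔ frattini H = ⊤ := by
    rw [eq_top_iff]
    intro g _
    -- the conjugate complement
    have hcompl : Subgroup.IsComplement' F' (C'.map (MulAut.conjNormal (H := L) g).toMonoidHom) := by
      have h1 := H1.SZ.isComplement'_map_of_le_left (MulAut.conjNormal (H := L) g).toMonoidHom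
        (MulAut.conjNormal (H := L) g).surjective hC' (by
          intro x hx
          rw [MonoidHom.mem_ker] at hx
          have : x = 1 := (MulAut.conjNormal (H := L) g).injective (by rw [map_one]; exact hx)
          rw [this]; exact F'.one_mem)
      have h2 : F'.map (MulAut.conjNormal (H := L) g).toMonoidHom = F' := by
        apply le_antisymm
        · rintro _ ⟨x, hx, rfl⟩
          rw [hF', Subgroup.mem_subgroupOf]
          show ((MulAut.conjNormal g x : L) : H) ∈ F
          rw [MulAut.conjNormal_apply]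
          exact hF.conj_mem _ hx g
        · intro x hx
          refine ⟨(MulAut.conjNormal g).symm x, ?_, ?_⟩
          · rw [hF', SetLike.mem_coe, Subgroup.mem_subgroupOf, MulAut.conjNormal_symm_apply]
            have := hF.conj_mem _ hx g⁻¹
            rwa [inv_inv] at this
          · exact (MulAut.conjNormal (H := L) g).apply_symm_apply x
      rwa [h2] at h1
    obtain ⟨n, hn, hconj⟩ := H1.SZ.sz_conj F' hcop' (Or.inl hsol') _ _ hcompl hC'
    have hng : (n : H) * g ∈ Subgroup.normalizer (C : Set H) := by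
      apply Subgroup.mem_normalizer_fintype
      intro c hc
      obtain ⟨c', hc', rfl⟩ := hc
      have h1 : (MulAut.conj n) ((MulAut.conjNormal g) c') ∈ C' := by
        rw [← hconj]
        exact Subgroup.smul_mem_pointwise_smul _ _ _ ⟨c', hc', rfl⟩
      refine ⟨_, h1, ?_⟩
      rw [MulAut.conj_apply]
      simp only [Subgroup.subtype_apply, Subgroup.coe_mul, Subgroup.coe_inv, MulAut.conjNormal_apply]
      group
    have h2 : g = ((n : H) * g) * (g⁻¹ * (n : H)⁻¹ * g) := by group
    rw [h2]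
    refine Subgroup.mul_mem_sup hng ?_
    have h3 := (inferInstance : (frattini H).Normal).conj_mem _ ((frattini H).inv_mem (hFf (Subgroup.mem_subgroupOf.1 hn))) g⁻¹
    rwa [inv_inv] at h3
  have htop := frattini_nongenerating hnorm
  have hCn : C.Normal := Subgroup.normalizer_eq_top_iff.1 htop
  refine ⟨C, hCn, hCL, ?_, ?_⟩
  · have h1 : C' ⊔ F' = ⊤ := by rw [sup_comm]; exact hC'.sup_eq_top
    have h2 := congrArg (Subgroup.map L.subtype) h1
    rw [Subgroup.map_sup, hF', Subgroup.map_subgroupOf_eq_of_le hFL, ← MonoidHom.range_eq_map, Subgroup.range_subtype] at h2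
    exact h2
  · rw [hC, Subgroup.card_map_of_injective L.subtype_injective]
    exact hC'.symm.index_eq_card.symm

section

variable {H : Type*} [Group H] [Finite H] {p q : ℕ} [hp : Fact p.Prime] [hq : Fact q.Prime]

theorem pgroup_of {K : Subgroup H} (h2 : pPrimeCore q H ≤ K) (P : Sylow p H)
    (h3 : K ≤ ⁅(P : Subgroup H), (P : Subgroup H)⁆ ⊔ pPrimeCore p H) (h5 : pPrimeCore p H ⊓ pPrimeCore q H = ⊥) :
    IsPGroup p (pPrimeCore q H) := by
  haveI : (pPrimeCore p H).Normal := H1.Nilp.pPrimeCore_normal p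
  rintro ⟨x, hx⟩
  have h1 := h3 (h2 hx)
  obtain ⟨a, ha, b, hb, rfl⟩ := Subgroup.mem_sup_of_normal_right.1 h1
  have haP : a ∈ (P : Subgroup H) := Subgroup.commutator_le_self _ ha
  obtain ⟨k, hk⟩ := P.2 ⟨a, haP⟩
  have hk' : a ^ p ^ k = 1 := congrArg Subtype.val hk
  refine ⟨k, ?_⟩
  have h4 : (a * b) ^ p ^ k ∈ pPrimeCore p H := by
    rw [← QuotientGroup.eq_one_iff, QuotientGroup.mk_pow, QuotientGroup.mk_mul, (QuotientGroup.eq_one_iff b).2 hb,
      mul_one, ← QuotientGroup.mk_pow, hk', QuotientGroup.mk_one]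
  have h6 : (a * b) ^ p ^ k ∈ pPrimeCore p H ⊓ pPrimeCore q H := ⟨h4, Subgroup.pow_mem _ hx _⟩
  rw [h5, Subgroup.mem_bot] at h6
  exact Subtype.ext h6

theorem le_frat {K : Subgroup H} (h2 : pPrimeCore q H ≤ K) (P : Sylow p H)
    (h3 : K ≤ ⁅(P : Subgroup H), (P : Subgroup H)⁆ ⊔ pPrimeCore p H) (h5 : pPrimeCore p H ⊓ pPrimeCore q H = ⊥) :
    pPrimeCore q H ≤ frattini H := by
  classical
  have hpg := pgroup_of h2 P h3 h5
  haveI : (pPrimeCore p H).Normal := H1.Nilp.pPrimeCore_normal p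
  haveI : (pPrimeCore q H).Normal := H1.Nilp.pPrimeCore_normal q
  have hNP : pPrimeCore q H ≤ P := Cfsg.Agent.H1.Hall.le_of_not_dvd_index hpg P.not_dvd_index
  have hN' : pPrimeCore q H ≤ ⁅(P : Subgroup H), (P : Subgroup H)⁆ := by
    intro x hx
    obtain ⟨a, ha, b, hb, rfl⟩ := Subgroup.mem_sup_of_normal_right.1 (h3 (h2 hx))
    have haP : a ∈ (P : Subgroup H) := Subgroup.commutator_le_self _ ha
    have hbP : b ∈ (P : Subgroup H) := by
      have := (P : Subgroup H).mul_mem ((P : Subgroup H).inv_mem haP) (hNP hx)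
      rwa [inv_mul_cancel_left] at this
    have hb1 : b = 1 := by
      obtain ⟨k, hk⟩ := IsPGroup.iff_orderOf.1 P.2 ⟨b, hbP⟩
      rw [Subgroup.orderOf_mk] at hk
      have h6 : orderOf b ∣ Nat.card (pPrimeCore p H) := by
        rw [← Subgroup.orderOf_mk b hb]
        exact orderOf_dvd_natCard _
      have h7 := (H1.Nilp.pPrimeCore_coprime (G := H) p).pow_right k
      rw [hk] at h6
      have h8 := Nat.eq_one_of_dvd_coprimes h7 h6 dvd_rfl
      rw [← hk] at h8
      exact orderOf_eq_one_iff.1 h8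
    rw [hb1, mul_one]
    exact ha
  rw [H1.Nilp.le_frattini_iff]
  intro M hM
  by_contra hNM
  have htop : M ⊔ pPrimeCore q H = ⊤ := hM.2 _ (by
    refine lt_of_le_of_ne le_sup_left ?_
    intro e
    exact hNM (by rw [e]; exact le_sup_right))
  have h6 : M.subgroupOf P ⊔ frattini (P : Subgroup H) = ⊤ := by
    rw [eq_top_iff]
    rintro ⟨y, hy⟩ _
    have hy' : y ∈ M ⊔ pPrimeCore q H := by rw [htop]; trivial
    obtain ⟨m, hm, n, hn, hmn⟩ := Subgroup.mem_sup_of_normal_right.1 hy'
    have hmP : m ∈ (P : Subgroup H) := by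
      have h7 : m = y * n⁻¹ := by rw [← hmn]; group
      rw [h7]
      exact (P : Subgroup H).mul_mem hy ((P : Subgroup H).inv_mem (hNP hn))
    have e : (⟨y, hy⟩ : (P : Subgroup H)) = ⟨m, hmP⟩ * ⟨n, hNP hn⟩ := Subtype.ext hmn.symm
    rw [e]
    refine Subgroup.mul_mem_sup (Subgroup.mem_subgroupOf.2 hm) ?_
    apply (H1.Nilp.commutator_le_frattini P.2).1
    have h8 := hN' hn
    have h9 : (commutator (P : Subgroup H)).map (P : Subgroup H).subtype = ⁅(P : Subgroup H), (P : Subgroup H)⁆ := by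
      rw [commutator_def, Subgroup.map_commutator, ← MonoidHom.range_eq_map, Subgroup.range_subtype]
    rw [← h9] at h8
    obtain ⟨z, hz, hzn⟩ := h8
    have : (⟨n, hNP hn⟩ : (P : Subgroup H)) = z := Subtype.ext hzn.symm
    rw [this]; exact hz
  have h7 := frattini_nongenerating h6
  rw [Subgroup.subgroupOf_eq_top] at h7
  exact hNM (hNP.trans h7)

omit hq in
theorem no_normal (hq : q.Prime) {F : Subgroup H} [hF : F.Normal] (hFdef : F = pPrimeCore p H ⊔ pPrimeCore q H)
    (hpp : ∃ k, Nat.card (pPrimeCore q H) = p ^ k) (hqq : ∃ k, Nat.card (pPrimeCore p H) = q ^ k)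
    (hpq : p ≠ q)
    (hf1 : pPrimeCore p H ≤ frattini H)
    (h5 : pPrimeCore p H ⊓ pPrimeCore q H = ⊥) {L : Subgroup H} [hL : L.Normal] (hFL : F ≤ L)
    (h : ∃ k, F.relIndex L = p ^ k) : L = F := by
  haveI : Fact q.Prime := ⟨hq⟩
  haveI hn1 : (pPrimeCore p H).Normal := H1.Nilp.pPrimeCore_normal p
  haveI hn2 : (pPrimeCore q H).Normal := H1.Nilp.pPrimeCore_normal q
  obtain ⟨k, hk⟩ := h
  obtain ⟨a, ha⟩ := hpp
  obtain ⟨b, hb⟩ := hqq
  have h1 : pPrimeCore p H ≤ F := by rw [hFdef]; exact le_sup_left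
  have h2 : (pPrimeCore p H).relIndex F = p ^ a := by
    rw [hFdef, Subgroup.relIndex_sup_left, ← Subgroup.inf_relIndex_right, h5, Subgroup.relIndex_bot_left, ha]
  have h3 : (pPrimeCore p H).relIndex L = p ^ (a + k) := by
    rw [← Subgroup.relIndex_mul_relIndex _ _ _ h1 hFL, h2, hk, pow_add]
  have hcop : (Nat.card (pPrimeCore p H)).Coprime ((pPrimeCore p H).relIndex L) := by
    rw [h3, hb]
    exact Nat.Coprime.pow _ _ ((Nat.coprime_primes hq hp.out).2 hpq.symm)
  have hsol : Group.IsSolvable (pPrimeCore p H) := by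
    haveI : Group.IsNilpotent (pPrimeCore p H) := (IsPGroup.of_card hb).isNilpotent
    infer_instance
  obtain ⟨C, hC, hCL, hCs, hCc⟩ := split (h1.trans hFL) hf1 hcop hsol
  have hC2 : C ≤ pPrimeCore q H := by
    apply H1.Nilp.le_pPrimeCore hC
    rw [hCc, h3]
    exact Nat.Coprime.pow_left _ ((Nat.coprime_primes hp.out hq).2 hpq)
  apply le_antisymm _ hFL
  rw [← hCs, hFdef]
  exact sup_le (hC2.trans le_sup_right) le_sup_left

theorem no_group (hpq : p ≠ q) (hdvd : p ∣ Nat.card H) (hps : IsPSolvable p H) (hqs : IsPSolvable q H)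
    (K : Subgroup H) (h1 : pPrimeCore p H ≤ K) (h2 : pPrimeCore q H ≤ K)
    (P : Sylow p H) (Q : Sylow q H)
    (h3 : K ≤ ⁅(P : Subgroup H), (P : Subgroup H)⁆ ⊔ pPrimeCore p H)
    (h4 : K ≤ ⁅(Q : Subgroup H), (Q : Subgroup H)⁆ ⊔ pPrimeCore q H)
    (h5 : pPrimeCore p H ⊓ pPrimeCore q H = ⊥) : False := by
  classical
  haveI hn1 : (pPrimeCore p H).Normal := H1.Nilp.pPrimeCore_normal p
  haveI hn2 : (pPrimeCore q H).Normal := H1.Nilp.pPrimeCore_normal q
  have h5' : pPrimeCore q H ⊓ pPrimeCore p H = ⊥ := by rw [inf_comm]; exact h5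
  have hpp := IsPGroup.iff_card.1 (pgroup_of h2 P h3 h5)
  have hqq := IsPGroup.iff_card.1 (pgroup_of h1 Q h4 h5')
  have hf2 := le_frat h2 P h3 h5
  have hf1 := le_frat h1 Q h4 h5'
  obtain ⟨F, hFdef⟩ : ∃ F, F = pPrimeCore p H ⊔ pPrimeCore q H := ⟨_, rfl⟩
  haveI hF : F.Normal := by rw [hFdef]; infer_instance
  have hFf : F ≤ frattini H := by rw [hFdef]; exact sup_le hf1 hf2
  haveI : Nontrivial H := by
    rw [← Finite.one_lt_card_iff_nontrivial]
    exact lt_of_lt_of_le hp.out.one_lt (Nat.le_of_dvd Nat.card_pos hdvd)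
  have hFtop : F ≠ ⊤ := by
    intro e
    rw [e, top_le_iff] at hFf
    have : IsCoatomic (Subgroup H) := inferInstance
    obtain ⟨M, hM, -⟩ := (eq_top_or_exists_le_coatom (⊥ : Subgroup H)).resolve_left bot_ne_top
    have h6 := (H1.Nilp.le_frattini_iff.1 hFf.ge) M hM
    exact hM.1 (top_le_iff.1 h6)
  haveI : Nontrivial (H ⧸ F) := by
    rw [← not_subsingleton_iff_nontrivial]
    intro hs
    exact hFtop (QuotientGroup.subgroup_eq_top_of_subsingleton F hs)
  -- normal subgroups of the quotient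
  have hlift : ∀ X : Subgroup (H ⧸ F), X.Normal → X.comap (QuotientGroup.mk' F) = F → X = ⊥ := by
    intro X _ hX
    rw [eq_bot_iff]
    intro x hx
    obtain ⟨g, rfl⟩ := QuotientGroup.mk_surjective x
    have : g ∈ X.comap (QuotientGroup.mk' F) := hx
    rw [hX] at this
    rw [Subgroup.mem_bot]
    exact (QuotientGroup.eq_one_iff g).2 this
  have hrel : ∀ X : Subgroup (H ⧸ F), F ≤ X.comap (QuotientGroup.mk' F) ∧ F.relIndex (X.comap (QuotientGroup.mk' F)) = Nat.card X := by
    intro X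
    have hle : F ≤ X.comap (QuotientGroup.mk' F) := by
      intro g hg
      rw [Subgroup.mem_comap, QuotientGroup.mk'_apply, (QuotientGroup.eq_one_iff g).2 hg]
      exact X.one_mem
    refine ⟨hle, ?_⟩
    have e1 := Subgroup.relIndex_ker (K := X.comap (QuotientGroup.mk' F)) (QuotientGroup.mk' F)
    rw [QuotientGroup.ker_mk', Subgroup.map_comap_eq_self_of_surjective (QuotientGroup.mk'_surjective F)] at e1
    exact e1
  have hp0 : pCore p (H ⧸ F) = ⊥ := by
    haveI hn := H1.Nilp.pCore_normal (G := H ⧸ F) p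
    apply hlift _ hn
    obtain ⟨k, hk⟩ := IsPGroup.iff_card.1 (H1.Nilp.pCore_isPGroup (G := H ⧸ F) p)
    exact no_normal hq.out hFdef hpp hqq hpq hf1 h5 (hrel _).1 ⟨k, by rw [(hrel _).2, hk]⟩
  have hq0 : pCore q (H ⧸ F) = ⊥ := by
    haveI hn := H1.Nilp.pCore_normal (G := H ⧸ F) q
    apply hlift _ hn
    obtain ⟨k, hk⟩ := IsPGroup.iff_card.1 (H1.Nilp.pCore_isPGroup (G := H ⧸ F) q)
    exact no_normal hp.out (hFdef.trans (sup_comm _ _)) hqq hpp hpq.symm hf2 h5' (hrel _).1 ⟨k, by rw [(hrel _).2, hk]⟩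
  have hpq0 : ∀ X : Subgroup (H ⧸ F), X.Normal → (Nat.card X).Coprime p → (Nat.card X).Coprime q → X = ⊥ := by
    intro X hX hXp hXq
    apply hlift X hX
    obtain ⟨hle, hcard⟩ := hrel X
    obtain ⟨a, ha⟩ := hpp
    obtain ⟨b, hb⟩ := hqq
    have hcF : Nat.card F ∣ p ^ a * q ^ b := by
      have h6 : Nat.card F = Nat.card (pPrimeCore p H) * (pPrimeCore p H).relIndex F := by
        have h7 : pPrimeCore p H ≤ F := by rw [hFdef]; exact le_sup_left
        rw [← Subgroup.relIndex_bot_left F, ← Subgroup.relIndex_bot_left (pPrimeCore p H)]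
        exact (Subgroup.relIndex_mul_relIndex _ _ _ bot_le h7).symm
      have h8 : (pPrimeCore p H).relIndex F = p ^ a := by
        rw [hFdef, Subgroup.relIndex_sup_left, ← Subgroup.inf_relIndex_right, h5, Subgroup.relIndex_bot_left, ha]
      rw [h6, h8, hb, mul_comm]
    have hcop : (Nat.card F).Coprime (F.relIndex (X.comap (QuotientGroup.mk' F))) := by
      rw [hcard]
      apply Nat.Coprime.coprime_dvd_left hcF
      exact Nat.Coprime.mul_left (hXp.symm.pow_left a) (hXq.symm.pow_left b)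
    have hsol : Group.IsSolvable F := by
      have : Group.IsSolvable (frattini H) := by
        haveI : Group.IsNilpotent (frattini H) := frattini_nilpotent
        infer_instance
      exact Group.isSolvable_of_isSolvable_injective (f := Subgroup.inclusion hFf) (Subgroup.inclusion_injective hFf)
    haveI : (X.comap (QuotientGroup.mk' F)).Normal := inferInstance
    obtain ⟨C, hC, hCL, hCs, hCc⟩ := split hle hFf hcop hsol
    rw [hcard] at hCc
    have hC0 : C ≤ pPrimeCore p H ⊓ pPrimeCore q H :=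
      le_inf (H1.Nilp.le_pPrimeCore hC (by rw [hCc]; exact hXp)) (H1.Nilp.le_pPrimeCore hC (by rw [hCc]; exact hXq))
    rw [h5, le_bot_iff] at hC0
    rw [← hCs, hC0, bot_sup_eq]
  have hps' := H22.PSolv.isPSolvable_quotient F hps
  have hqs' := H22.PSolv.isPSolvable_quotient F hqs
  have hX := (H22.PSolv.pCore_or_pPrimeCore_ne_bot hps').resolve_left (fun h => h hp0)
  haveI hXn := H1.Nilp.pPrimeCore_normal (G := H ⧸ F) p
  haveI : Nontrivial (pPrimeCore p (H ⧸ F)) := (Subgroup.nontrivial_iff_ne_bot _).2 hX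
  rcases H22.PSolv.pCore_or_pPrimeCore_ne_bot (H22.PSolv.isPSolvable_subgroup (pPrimeCore p (H ⧸ F)) hqs') with h | h
  · apply h
    have h6 : ((pCore q (pPrimeCore p (H ⧸ F))).map (pPrimeCore p (H ⧸ F)).subtype) ≤ pCore q (H ⧸ F) :=
      H1.Nilp.le_pCore inferInstance ((H1.Nilp.pCore_isPGroup q).map _)
    rw [hq0, le_bot_iff, Subgroup.map_eq_bot_iff_of_injective _ (Subgroup.subtype_injective _)] at h6
    exact h6
  · apply h
    have h6 : ((pPrimeCore q (pPrimeCore p (H ⧸ F))).map (pPrimeCore p (H ⧸ F)).subtype) = ⊥ := by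
      apply hpq0 _ inferInstance
      · exact (H1.Nilp.pPrimeCore_coprime (G := H ⧸ F) p).coprime_dvd_left (Subgroup.card_dvd_of_le (Subgroup.map_subtype_le _))
      · rw [Subgroup.card_map_of_injective (Subgroup.subtype_injective _)]
        exact H1.Nilp.pPrimeCore_coprime q
    rwa [Subgroup.map_eq_bot_iff_of_injective _ (Subgroup.subtype_injective _)] at h6

end

end Cfsg.Agent.H10.FratQ
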