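import Mathlib
import Cfsg.Agent.H3_CycExt
import Cfsg.Agent.H3_Clifford2
import Cfsg.Agent.H3_CharQuot
import Cfsg.Agent.H3_CharMult
import Cfsg.Agent.H10_AbChar

/-!
H10_FullRam: fully ramified characters.
-/

set_option autoImplicit false
set_option linter.style.haveILetI false
set_option linter.unusedSectionVars false

namespace Cfsg.Agent.H10.FullRam

open Cfsg Cfsg.Agent.H3.CharIrr Cfsg.Agent.H3.CharComplete Cfsg.Agent.H3.CharInd
  Cfsg.Agent.H3.CharBasic Cfsg.Agent.H3.CharInt Cfsg.Agent.H3.Clifford Cfsg.Agent.H3.CharQuot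
  Cfsg.Agent.H3.CharMult Cfsg.Agent.H10.Char Cfsg.Agent.H10.BlockKer
open scoped ComplexConjugate

variable {H : Type*} [Group H] [Fintype H] {Z : Subgroup H} [hZ : Z.Normal] {χ : H → ℂ} {θ : Z → ℂ} {e : ℕ}

include hZ in
theorem e_ne (he : e ^ 2 = Z.index) : e ≠ 0 := by
  rintro rfl
  exact Subgroup.index_ne_zero_of_finite (H := Z) (by rw [← he]; norm_num)

theorem inv_of (hχ : IsIrrCharacter H χ) (he : e ^ 2 = Z.index) (hr : ∀ z : Z, χ z = (e : ℂ) * θ z)
    (g : H) : cj hZ g θ = θ := by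
  funext z
  have h1 := hr z
  have h2 := hr ⟨g * z * g⁻¹, hZ.conj_mem _ z.2 g⟩
  have h3 := IsIrr.isClass hχ (z : H) g
  rw [show ((⟨g * z * g⁻¹, hZ.conj_mem _ z.2 g⟩ : Z) : H) = g * z * g⁻¹ from rfl, h3, h1] at h2
  exact (mul_left_cancel₀ (by exact_mod_cast e_ne he) h2).symm

theorem res_inner [Fintype Z] (hθ : IsIrrCharacter Z θ) (hr : ∀ z : Z, χ z = (e : ℂ) * θ z) :
    classInner (fun z : Z => χ z) θ = e := by
  have : (fun z : Z => χ z) = (e : ℂ) • θ := funext fun z => hr z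
  rw [this, ci_smul_left, ci_irr_self hθ, mul_one]

theorem ind_eq (hχ : IsIrrCharacter H χ) (hθ : IsIrrCharacter Z θ) (he : e ^ 2 = Z.index)
    (hr : ∀ z : Z, χ z = (e : ℂ) * θ z) : indFun Z θ = (e : ℂ) • χ := by
  classical
  haveI : Fintype Z := Fintype.ofFinite _
  have hinert : inertia hZ θ = ⊤ := by
    rw [eq_top_iff]
    intro g _
    exact inv_of hχ he hr g
  have h1 := ci_ind_self hZ hθ
  rw [hinert, Subgroup.card_top, ← Subgroup.card_mul_index Z, ← he] at h1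
  push_cast at h1
  have hZ0 : (Nat.card Z : ℂ) ≠ 0 := Nat.cast_ne_zero.2 Nat.card_pos.ne'
  have h2 := mul_left_cancel₀ hZ0 h1
  have h3 : classInner (indFun Z θ) χ = e := by
    rw [frobenius Z θ χ (IsIrr.isClass hχ), ← ci_conj_symm, res_inner hθ hr]
    simp
  have h4 : classInner (indFun Z θ - (e : ℂ) • χ) (indFun Z θ - (e : ℂ) • χ) = 0 := by
    have h5 : classInner χ (indFun Z θ) = e := by rw [← ci_conj_symm, h3]; simp
    rw [ci_sub_left, ci_sub_right, ci_sub_right, ci_smul_left, ci_smul_left, ci_smul_right, ci_smul_right,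
      h2, h3, h5, ci_irr_self hχ]
    simp only [map_natCast]
    ring
  exact sub_eq_zero.1 (ci_self_eq_zero h4)

/-- χ is the only irreducible character over θ -/
theorem only [Fintype Z] (hχ : IsIrrCharacter H χ) (hθ : IsIrrCharacter Z θ) (he : e ^ 2 = Z.index)
    (hr : ∀ z : Z, χ z = (e : ℂ) * θ z) {ψ : H → ℂ} (hψ : IsIrrCharacter H ψ)
    (h0 : classInner (fun z : Z => ψ z) θ ≠ 0) : ψ = χ := by
  by_contra hne
  apply h0
  rw [← ci_conj_symm, ← frobenius Z θ ψ (IsIrr.isClass hψ), ind_eq hχ hθ he hr, ci_smul_left,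
    ci_irr_ne hχ hψ (fun h => hne h.symm), mul_zero, map_zero]

/-- χ vanishes off Z -/
theorem off (hχ : IsIrrCharacter H χ) (hθ : IsIrrCharacter Z θ) (he : e ^ 2 = Z.index)
    (hr : ∀ z : Z, χ z = (e : ℂ) * θ z) {h : H} (hh : h ∉ Z) : χ h = 0 := by
  have h1 := congrFun (ind_eq hχ hθ he hr) h
  rw [ind_of_not_mem hZ θ hh, Pi.smul_apply, smul_eq_mul] at h1
  rcases mul_eq_zero.1 h1.symm with h2 | h2
  · exact absurd h2 (by exact_mod_cast e_ne he)
  · exact h2

theorem constituent_over [Fintype Z] (hθ : IsIrrCharacter Z θ) {K : Subgroup H} [Fintype K] (hZK : Z ≤ K)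
    {η : K → ℂ} (hη : IsIrrCharacter K η) (hηθ : ∀ z : Z, η ⟨z, hZK z.2⟩ = θ z) {ψ : H → ℂ}
    (hψ : IsCharacter H ψ) (h0 : classInner (fun k : K => ψ k) η ≠ 0) :
    classInner (fun z : Z => ψ z) θ ≠ 0 := by
  obtain ⟨m, hm⟩ := ci_char_nat (IsChar.res hψ K) (IsIrr.isCharacter hη)
  have hm1 : 1 ≤ m := by
    rcases Nat.eq_zero_or_pos m with h | h
    · exact absurd (by rw [hm, h, Nat.cast_zero]) h0
    · exact h
  have h1 := IsChar.sub_constituent (IsChar.res hψ K) hη hm hm1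
  rw [Nat.cast_one, one_smul] at h1
  have h2 : IsCharacter Z (fun z : Z => ((fun k : K => ψ k) - η) ⟨z, hZK z.2⟩) := by
    obtain ⟨n, ρ, hρ⟩ := h1
    refine ⟨n, ρ.comp (Subgroup.inclusion hZK), ?_⟩
    funext z
    exact congrFun hρ (Subgroup.inclusion hZK z)
  obtain ⟨n, hn⟩ := ci_char_nat h2 (IsIrr.isCharacter hθ)
  have h3 : (fun z : Z => ψ z) = (fun z : Z => ((fun k : K => ψ k) - η) ⟨z, hZK z.2⟩) + θ := by
    funext z
    rw [Pi.add_apply, Pi.sub_apply, hηθ]
    ring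
  rw [h3, ci_add_left, hn, ci_irr_self hθ]
  exact_mod_cast Nat.succ_ne_zero n

theorem no_selfcent (hχ : IsIrrCharacter H χ) (hθ : IsIrrCharacter Z θ) (he : e ^ 2 = Z.index)
    (hr : ∀ z : Z, χ z = (e : ℂ) * θ z) (C : Subgroup (H ⧸ Z)) (hC : IsCyclic C)
    (hcent : Subgroup.centralizer (C : Set (H ⧸ Z)) = C) : Z = ⊤ := by
  classical
  by_contra hne
  haveI : Fintype Z := Fintype.ofFinite _
  obtain ⟨g, hg⟩ := hC.exists_generator
  obtain ⟨c, hc⟩ := QuotientGroup.mk'_surjective Z (g : H ⧸ Z)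
  have hg1 : (g : H ⧸ Z) ≠ 1 := by
    intro h1
    have hbot : C = ⊥ := by
      rw [eq_bot_iff]
      intro x hx
      obtain ⟨i, hi⟩ := Subgroup.mem_zpowers_iff.1 (hg ⟨x, hx⟩)
      have h2 := congrArg Subtype.val hi
      rw [Subgroup.coe_zpow, h1, one_zpow] at h2
      rw [Subgroup.mem_bot]
      exact h2.symm
    rw [hbot] at hcent
    have h3 : (⊤ : Subgroup (H ⧸ Z)) = ⊥ := by
      rw [← hcent, eq_comm, eq_top_iff]
      intro x _
      rw [Subgroup.mem_centralizer_iff]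
      intro y hy
      have : y = 1 := hy
      rw [this, one_mul, mul_one]
    apply hne
    rw [eq_top_iff]
    intro x _
    have h4 : (QuotientGroup.mk' Z x) ∈ (⊤ : Subgroup (H ⧸ Z)) := Subgroup.mem_top _
    rw [h3, Subgroup.mem_bot] at h4
    exact (QuotientGroup.eq_one_iff x).1 h4
  obtain ⟨K, hK⟩ : ∃ K : Subgroup H, K = C.comap (QuotientGroup.mk' Z) := ⟨_, rfl⟩
  haveI : Fintype K := Fintype.ofFinite _
  have hmemK : ∀ x : H, x ∈ K ↔ QuotientGroup.mk' Z x ∈ C := fun x => by rw [hK]; rfl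
  have hcK : c ∈ K := by rw [hmemK, hc]; exact g.2
  have hZK : Z ≤ K := by
    intro x hx
    rw [hmemK, show QuotientGroup.mk' Z x = 1 from (QuotientGroup.eq_one_iff x).2 hx]
    exact C.one_mem
  haveI hNn : (Z.subgroupOf K).Normal := Subgroup.normal_subgroupOf
  have hgen : ∀ k : K, ∃ i : ℤ, (QuotientGroup.mk k : K ⧸ Z.subgroupOf K) = (QuotientGroup.mk ⟨c, hcK⟩) ^ i := by
    intro k
    obtain ⟨i, hi⟩ := Subgroup.mem_zpowers_iff.1 (hg ⟨_, (hmemK k).1 k.2⟩)
    refine ⟨i, ?_⟩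
    rw [← QuotientGroup.mk_zpow, eq_comm, QuotientGroup.eq, Subgroup.mem_subgroupOf]
    have h2 := congrArg Subtype.val hi
    rw [Subgroup.coe_zpow, ← hc, ← map_zpow] at h2
    have h3 := (QuotientGroup.eq (s := Z)).1 h2
    exact h3
  have hcyc : IsCyclic (K ⧸ Z.subgroupOf K) := by
    refine ⟨⟨QuotientGroup.mk ⟨c, hcK⟩, fun x => ?_⟩⟩
    obtain ⟨k, rfl⟩ := QuotientGroup.mk_surjective x
    obtain ⟨i, hi⟩ := hgen k
    exact Subgroup.mem_zpowers_iff.2 ⟨i, hi.symm⟩
  have hab : ∀ a b : K ⧸ Z.subgroupOf K, a * b = b * a := by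
    intro a b
    letI := IsCyclic.commGroup (α := K ⧸ Z.subgroupOf K)
    exact mul_comm a b
  have hθ' : IsIrrCharacter (Z.subgroupOf K) (fun x => θ ⟨(x : K), Subgroup.mem_subgroupOf.1 x.2⟩) :=
    (isIrr_comp_iff (Subgroup.subgroupOfEquivOfLe hZK)).2 hθ
  obtain ⟨μ, hμ, hμN⟩ := Cfsg.Agent.H3.CycExt.exists_extension (Z.subgroupOf K) hcyc _ hθ' (by
    intro k n
    have := congrFun (inv_of hχ he hr (k : H)) ⟨((n : K) : H), Subgroup.mem_subgroupOf.1 n.2⟩
    exact this)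
  haveI : Fintype (IrrCharacter (K ⧸ Z.subgroupOf K)) := Fintype.ofFinite _
  haveI : Fintype (Z.subgroupOf K) := Fintype.ofFinite _
  set cb : K ⧸ Z.subgroupOf K := QuotientGroup.mk ⟨c, hcK⟩ with hcb
  have hcard : (Nat.card (K ⧸ Z.subgroupOf K) : ℂ) ≠ 0 := Nat.cast_ne_zero.2 Nat.card_pos.ne'
  have hμN' : IsIrrCharacter (Z.subgroupOf K) (fun n : Z.subgroupOf K => μ n) := by
    have : (fun n : Z.subgroupOf K => μ n) = fun x : Z.subgroupOf K => θ ⟨((x : K) : H), Subgroup.mem_subgroupOf.1 x.2⟩ := funext hμN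
    rw [this]; exact hθ'
  set bt : IrrCharacter (K ⧸ Z.subgroupOf K) → K → ℂ := fun l k => (l : K ⧸ Z.subgroupOf K → ℂ) (QuotientGroup.mk k) with hbt
  have hbti : ∀ l, IsIrrCharacter K (bt l) := fun l => IsIrr.inflate l.2
  have hbtk : ∀ l, InKer (Z.subgroupOf K) (bt l) := by
    intro l n hn k
    show (l : K ⧸ Z.subgroupOf K → ℂ) (QuotientGroup.mk (n * k)) = _
    rw [QuotientGroup.mk_mul, (QuotientGroup.eq_one_iff n).2 hn, one_mul]
  set f : K → ℂ := fun k => if (QuotientGroup.mk k : K ⧸ Z.subgroupOf K) = cb then μ k else 0 with hf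
  have hfe : f = ∑ l : IrrCharacter (K ⧸ Z.subgroupOf K),
      ((Nat.card (K ⧸ Z.subgroupOf K) : ℂ)⁻¹ * (l : K ⧸ Z.subgroupOf K → ℂ) cb⁻¹) • (bt l * μ) := by
    funext k
    rw [Finset.sum_apply]
    have h1 : ∀ l : IrrCharacter (K ⧸ Z.subgroupOf K),
        (((Nat.card (K ⧸ Z.subgroupOf K) : ℂ)⁻¹ * (l : K ⧸ Z.subgroupOf K → ℂ) cb⁻¹) • (bt l * μ)) k =
        ((Nat.card (K ⧸ Z.subgroupOf K) : ℂ)⁻¹ * μ k) * (l : K ⧸ Z.subgroupOf K → ℂ) (cb⁻¹ * QuotientGroup.mk k) := by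
      intro l
      rw [Cfsg.Agent.H10.AbChar.lin_mul hab l, Pi.smul_apply, Pi.mul_apply, smul_eq_mul]
      show _ * ((l : K ⧸ Z.subgroupOf K → ℂ) (QuotientGroup.mk k) * μ k) = _
      ring
    rw [Finset.sum_congr rfl (fun l _ => h1 l), ← Finset.mul_sum, Cfsg.Agent.H10.AbChar.col_one hab]
    show (if (QuotientGroup.mk k : K ⧸ Z.subgroupOf K) = cb then μ k else 0) = _
    by_cases hk : (QuotientGroup.mk k : K ⧸ Z.subgroupOf K) = cb
    · rw [if_pos hk, hk, inv_mul_cancel, if_pos rfl]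
      field_simp
    · rw [if_neg hk, if_neg (fun h => hk (inv_mul_eq_one.1 h).symm), mul_zero]
  have hone : ∀ l, bt l 1 = 1 := fun l => Cfsg.Agent.H10.AbChar.lin_one hab l
  have hfμ : classInner f μ ≠ 0 := by
    have h1 : ∀ l, classInner (bt l * μ) μ = if l = triv (K ⧸ Z.subgroupOf K) then 1 else 0 := by
      intro l
      have h2 : InKer (Z.subgroupOf K) (fun _ : K => (1 : ℂ)) := fun _ _ _ => rfl
      have h3 := gallagher_inner hNn hμ hμN' (hbtk l) h2
      rw [show ((fun _ : K => (1 : ℂ)) * μ) = μ from funext fun _ => one_mul _] at h3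
      rw [h3]
      have h4 : (fun _ : K => (1 : ℂ)) = bt (triv (K ⧸ Z.subgroupOf K)) := rfl
      rw [h4, ci_irr (hbti l) (hbti _)]
      by_cases hl : l = triv (K ⧸ Z.subgroupOf K)
      · rw [if_pos hl, if_pos (by rw [hl])]
      · rw [if_neg hl, if_neg]
        intro h
        apply hl
        apply Subtype.ext
        funext x
        obtain ⟨k, rfl⟩ := QuotientGroup.mk_surjective x
        exact congrFun h k
    rw [hfe, ci_sum_left]
    have h2 : ∀ l : IrrCharacter (K ⧸ Z.subgroupOf K), classInner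
        (((Nat.card (K ⧸ Z.subgroupOf K) : ℂ)⁻¹ * (l : K ⧸ Z.subgroupOf K → ℂ) cb⁻¹) • (bt l * μ)) μ =
        if l = triv (K ⧸ Z.subgroupOf K) then (Nat.card (K ⧸ Z.subgroupOf K) : ℂ)⁻¹ else 0 := by
      intro l
      rw [ci_smul_left, h1]
      by_cases hl : l = triv (K ⧸ Z.subgroupOf K)
      · rw [if_pos hl, if_pos hl, hl, triv_coe, mul_one, mul_one]
      · rw [if_neg hl, if_neg hl, mul_zero]
    rw [Finset.sum_congr rfl (fun l _ => h2 l), Finset.sum_ite_eq' Finset.univ, if_pos (Finset.mem_univ _)]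
    exact inv_ne_zero hcard
  -- the induced function is a multiple of χ
  have hF : ∀ ψ : IrrCharacter H, (ψ : H → ℂ) ≠ χ → classInner (indFun K f) (ψ : H → ℂ) = 0 := by
    intro ψ hne'
    rw [frobenius K f _ (IsIrr.isClass ψ.2), hfe, ci_sum_left]
    refine Finset.sum_eq_zero fun l _ => ?_
    rw [ci_smul_left]
    have h1 : classInner (bt l * μ) (fun k : K => (ψ : H → ℂ) k) = 0 := by
      by_contra h2
      apply hne'
      have h3 := gallagher_irr hNn hμ hμN' (hbti l) (hbtk l)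
      refine only hχ hθ he hr ψ.2 (constituent_over hθ hZK h3 ?_ (IsIrr.isCharacter ψ.2) ?_)
      · intro z
        have h4 := hbtk l ⟨z, hZK z.2⟩ (Subgroup.mem_subgroupOf.2 z.2) 1
        rw [mul_one, hone] at h4
        rw [Pi.mul_apply, h4, one_mul]
        exact hμN ⟨⟨z, hZK z.2⟩, Subgroup.mem_subgroupOf.2 z.2⟩
      · intro h5
        apply h2
        rw [← ci_conj_symm, h5, map_zero]
    rw [h1, mul_zero]
  haveI : Fintype (IrrCharacter H) := Fintype.ofFinite _
  have hF2 : ∀ x : H, x ∉ Z → indFun K f x = 0 := by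
    intro x hx
    rw [expand_apply _ (ind_isClass K f) x]
    refine Finset.sum_eq_zero fun ψ _ => ?_
    by_cases h : (ψ : H → ℂ) = χ
    · rw [h, off hχ hθ he hr hx, mul_zero]
    · rw [hF ψ h, zero_mul]
  -- value on the coset
  have hval : ∀ k : K, (QuotientGroup.mk k : K ⧸ Z.subgroupOf K) = cb → indFun K f (k : H) = μ k := by
    intro k hk
    have hπk : QuotientGroup.mk' Z (k : H) = (g : H ⧸ Z) := by
      rw [← hc]
      have h1 := (QuotientGroup.eq (s := Z.subgroupOf K)).1 hk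
      rw [Subgroup.mem_subgroupOf] at h1
      exact (QuotientGroup.eq (s := Z)).2 h1
    rw [indFun]
    have hterm : ∀ t : H, extendByZero K f (t⁻¹ * k * t) = if t ∈ K then μ k else 0 := by
      intro t
      by_cases ht : t ∈ K
      · rw [if_pos ht]
        have h1 : t⁻¹ * (k : H) * t = (((⟨t, ht⟩ : K)⁻¹ * k * ⟨t, ht⟩ : K) : H) := rfl
        rw [h1, ext_coe]
        have h2 : (QuotientGroup.mk ((⟨t, ht⟩ : K)⁻¹ * k * ⟨t, ht⟩) : K ⧸ Z.subgroupOf K) = cb := by
          rw [QuotientGroup.mk_mul, QuotientGroup.mk_mul, hab, QuotientGroup.mk_inv, mul_inv_cancel_left, hk]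
        show (if (QuotientGroup.mk ((⟨t, ht⟩ : K)⁻¹ * k * ⟨t, ht⟩) : K ⧸ Z.subgroupOf K) = cb then _ else _) = _
        rw [if_pos h2]
        have := IsIrr.isClass hμ k (⟨t, ht⟩ : K)⁻¹
        rwa [inv_inv] at this
      · rw [if_neg ht]
        by_cases hm : t⁻¹ * (k : H) * t ∈ K
        · rw [ext_mem K f hm]
          show (if (QuotientGroup.mk _ : K ⧸ Z.subgroupOf K) = cb then _ else _) = _
          rw [if_neg]
          intro h
          apply ht
          rw [hmemK, ← hcent, Subgroup.mem_centralizer_iff]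
          have h1 := (QuotientGroup.eq (s := Z.subgroupOf K)).1 h
          rw [Subgroup.mem_subgroupOf] at h1
          have h2 : QuotientGroup.mk' Z (t⁻¹ * k * t) = QuotientGroup.mk' Z c := (QuotientGroup.eq (s := Z)).2 h1
          rw [hc, map_mul, map_mul, map_inv, hπk] at h2
          have h3 : (g : H ⧸ Z) * QuotientGroup.mk' Z t = QuotientGroup.mk' Z t * g := by
            have := congrArg (fun y => QuotientGroup.mk' Z t * y) h2
            simpa [mul_assoc] using this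
          intro y hy
          obtain ⟨i, hi⟩ := Subgroup.mem_zpowers_iff.1 (hg ⟨y, hy⟩)
          have h4 := congrArg Subtype.val hi
          rw [Subgroup.coe_zpow] at h4
          have h5 : Commute (g : H ⧸ Z) (QuotientGroup.mk' Z t) := h3
          have h6 := h5.zpow_left i
          rw [h4] at h6
          exact h6
        · rw [ext_not_mem K f hm]
    rw [Finset.sum_congr rfl (fun t _ => hterm t), ← Finset.sum_filter, Finset.sum_const, nsmul_eq_mul]
    have h0 : (Finset.univ.filter (fun t : H => t ∈ K)).card = Nat.card K := by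
      rw [Nat.card_eq_fintype_card, Fintype.card_subtype]
    rw [h0, ← mul_assoc, inv_mul_cancel₀ (Nat.cast_ne_zero.2 Nat.card_pos.ne'), one_mul]
  apply hfμ
  have hf0 : f = 0 := by
    funext k
    show (if (QuotientGroup.mk k : K ⧸ Z.subgroupOf K) = cb then μ k else 0) = 0
    by_cases hk : (QuotientGroup.mk k : K ⧸ Z.subgroupOf K) = cb
    · rw [if_pos hk, ← hval k hk]
      apply hF2
      intro hkZ
      apply hg1
      have h1 := (QuotientGroup.eq (s := Z.subgroupOf K)).1 hk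
      rw [Subgroup.mem_subgroupOf] at h1
      have h2 : QuotientGroup.mk' Z (k : H) = QuotientGroup.mk' Z c := (QuotientGroup.eq (s := Z)).2 h1
      rw [← hc, ← h2]
      exact (QuotientGroup.eq_one_iff (k : H)).2 hkZ
    · rw [if_neg hk]
  rw [hf0, ci_zero_left]

end Cfsg.Agent.H10.FullRam
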