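import Mathlib
import Cfsg.Agent.H10_FullRam
import Cfsg.Agent.H3_Lift
import Cfsg.Agent.H1_Basic
import Cfsg.Agent.S0006

/-!
H10_FullRam2: fully ramified characters induced from normal subgroups.
-/

set_option autoImplicit false
set_option linter.style.haveILetI false
set_option linter.unusedSectionVars false

namespace Cfsg.Agent.H10.FullRam

open Cfsg Cfsg.Agent.H3.CharIrr Cfsg.Agent.H3.CharComplete Cfsg.Agent.H3.CharInd
  Cfsg.Agent.H3.CharBasic Cfsg.Agent.H3.CharInt Cfsg.Agent.H3.Clifford Cfsg.Agent.H3.CharQuot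
  Cfsg.Agent.H3.CharMult Cfsg.Agent.H10.Char Cfsg.Agent.H10.BlockKer Cfsg.Agent.H3.Lift
open scoped ComplexConjugate

section A

variable {P : Type*} [Group P] [Fintype P] {Z Q : Subgroup P} [hZ : Z.Normal] [hQ : Q.Normal]
  [Fintype Z] [Fintype Q] {ψ : P → ℂ} {θ : Z → ℂ} {b : ℕ}

theorem sum_sub {H : Type*} [Group H] [Fintype H] (Q : Subgroup H) [Fintype Q] (f : H → ℂ)
    (hf : ∀ x, x ∉ Q → f x = 0) : ∑ q : Q, f q = ∑ x : H, f x := by
  classical
  rw [← Finset.sum_filter_add_sum_filter_not Finset.univ (fun x : H => x ∈ Q) f,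
    Finset.sum_eq_zero (s := Finset.univ.filter (fun x : H => x ∉ Q)) (fun x hx => hf x (Finset.mem_filter.1 hx).2), add_zero]
  rw [Finset.sum_subtype (Finset.univ.filter (fun x : H => x ∈ Q)) (p := fun x => x ∈ Q) (by simp)]

theorem lemA (hψ : IsIrrCharacter P ψ) (hθ : IsIrrCharacter Z θ) (hb : b ^ 2 = Z.index)
    (hr : ∀ z : Z, ψ z = (b : ℂ) * θ z) (hZQ : Z ≤ Q) {ν : Q → ℂ} (hν : IsIrrCharacter Q ν)
    (h0 : classInner (fun q : Q => ψ q) ν ≠ 0) :
    ∃ d : ℕ, classInner (fun q : Q => ψ q) ν = d ∧ d ^ 2 * (inertia hQ ν).index = Q.index ∧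
      ψ 1 = d * (inertia hQ ν).index * ν 1 := by
  classical
  obtain ⟨d, hd⟩ := ci_char_nat (IsChar.res (IsIrr.isCharacter hψ) Q) (IsIrr.isCharacter hν)
  refine ⟨d, hd, ?_, ?_⟩
  · have h1 := clifford hQ hψ hν h0
    have h2 : classInner (fun q : Q => ψ q) (fun q : Q => ψ q) = (d : ℂ) ^ 2 * (inertia hQ ν).index := by
      conv_lhs => rw [h1]
      rw [ci_smul_left, ci_sum_left, Finset.sum_congr rfl (g := fun _ => (d : ℂ)), Finset.sum_const, nsmul_eq_mul,
        card_orb_eq_index, hd]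
      · ring
      · intro φ hφ
        obtain ⟨g, rfl⟩ := (mem_orb hQ ν φ).1 hφ
        rw [← h1, ← ci_conj_symm, cj_ci_res hQ (IsIrr.isClass hψ) g ν, hd]
        simp
    have h3 : classInner (fun q : Q => ψ q) (fun q : Q => ψ q) = Q.index := by
      rw [classInner, sum_sub Q (fun x => ψ x * conj (ψ x)) (fun x hx => by
        rw [off hψ hθ hb hr (fun h => hx (hZQ h)), zero_mul])]
      have h4 := ci_irr_self hψ
      rw [classInner] at h4
      have hP : (Nat.card P : ℂ) ≠ 0 := Nat.cast_ne_zero.2 Nat.card_pos.ne'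
      have hQ0 : (Nat.card Q : ℂ) ≠ 0 := Nat.cast_ne_zero.2 Nat.card_pos.ne'
      have h5 : ∑ x : P, ψ x * conj (ψ x) = Nat.card P := by
        field_simp at h4
        exact h4
      rw [h5, ← Subgroup.card_mul_index Q]
      push_cast
      field_simp
    rw [h2] at h3
    exact_mod_cast h3
  · rw [clifford_degree hQ hψ hν h0, hd]

end A

section B

variable {H : Type*} [Group H] [Fintype H] {Z : Subgroup H} [hZ : Z.Normal] {χ : H → ℂ} {θ : Z → ℂ} {e : ℕ}

theorem trans_const {A B : Subgroup H} [Fintype A] [Fintype B] (hAB : A ≤ B)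
    {η : B → ℂ} (hη : IsIrrCharacter B η) {ζ : A → ℂ} (hζ : IsIrrCharacter A ζ)
    (h1 : classInner (fun a : A => η ⟨a, hAB a.2⟩) ζ ≠ 0) {ψ : H → ℂ}
    (hψ : IsCharacter H ψ) (h0 : classInner (fun k : B => ψ k) η ≠ 0) :
    classInner (fun z : A => ψ z) ζ ≠ 0 := by
  obtain ⟨m, hm⟩ := ci_char_nat (IsChar.res hψ B) (IsIrr.isCharacter hη)
  have hm1 : 1 ≤ m := by
    rcases Nat.eq_zero_or_pos m with h | h
    · exact absurd (by rw [hm, h, Nat.cast_zero]) h0
    · exact h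
  have hs := IsChar.sub_constituent (IsChar.res hψ B) hη hm hm1
  rw [Nat.cast_one, one_smul] at hs
  have hr : ∀ {f : B → ℂ}, IsCharacter B f → IsCharacter A (fun z : A => f ⟨z, hAB z.2⟩) := by
    intro f hf
    obtain ⟨n, ρ, hρ⟩ := hf
    refine ⟨n, ρ.comp (Subgroup.inclusion hAB), ?_⟩
    funext z
    exact congrFun hρ (Subgroup.inclusion hAB z)
  obtain ⟨n, hn⟩ := ci_char_nat (hr hs) (IsIrr.isCharacter hζ)
  obtain ⟨k, hk⟩ := ci_char_nat (hr (IsIrr.isCharacter hη)) (IsIrr.isCharacter hζ)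
  have h3 : (fun z : A => ψ z) = (fun z : A => ((fun k : B => ψ k) - η) ⟨z, hAB z.2⟩) + (fun z : A => η ⟨z, hAB z.2⟩) := by
    funext z
    rw [Pi.add_apply, Pi.sub_apply]
    ring
  rw [h3, ci_add_left, hn, hk]
  rw [hk] at h1
  have h4 : k ≠ 0 := fun h => h1 (by rw [h, Nat.cast_zero])
  have h5 : n + k ≠ 0 := by omega
  exact_mod_cast h5

theorem res_norm_le {H : Type*} [Group H] [Fintype H] (N : Subgroup H) [Fintype N] {ψ : H → ℂ}
    (hψ : IsIrrCharacter H ψ) {c : ℕ} {θ : N → ℂ} (hθ : IsIrrCharacter N θ) (h : ∀ n : N, ψ n = (c : ℂ) * θ n) :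
    c ^ 2 ≤ N.index := by
  classical
  have h1 := ci_irr_self hψ
  have h2 := ci_irr_self hθ
  rw [classInner] at h1 h2
  have hP : (Nat.card H : ℂ) ≠ 0 := Nat.cast_ne_zero.2 Nat.card_pos.ne'
  have hQ0 : (Nat.card N : ℂ) ≠ 0 := Nat.cast_ne_zero.2 Nat.card_pos.ne'
  have h3 : ∑ x : H, ψ x * conj (ψ x) = Nat.card H := by field_simp at h1; exact h1
  have h4 : ∑ x : N, θ x * conj (θ x) = Nat.card N := by field_simp at h2; exact h2
  have h5 : ∀ z : ℂ, z * conj z = ((Complex.normSq z : ℝ) : ℂ) := fun z => Complex.mul_conj z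
  simp only [h5] at h3 h4
  have h3' : ∑ x : H, Complex.normSq (ψ x) = Nat.card H := by exact_mod_cast h3
  have h4' : ∑ x : N, Complex.normSq (θ x) = Nat.card N := by exact_mod_cast h4
  have h6 : ∑ x : N, Complex.normSq (ψ x) ≤ ∑ x : H, Complex.normSq (ψ x) := by
    rw [← Finset.sum_filter_add_sum_filter_not Finset.univ (fun x : H => x ∈ N) (fun x => Complex.normSq (ψ x)),
      Finset.sum_subtype (Finset.univ.filter (fun x : H => x ∈ N)) (p := fun x => x ∈ N) (by simp)]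
    have : 0 ≤ ∑ x ∈ Finset.univ.filter (fun x : H => ¬ x ∈ N), Complex.normSq (ψ x) :=
      Finset.sum_nonneg fun _ _ => Complex.normSq_nonneg _
    linarith
  have h7 : ∑ x : N, Complex.normSq (ψ x) = (c : ℝ) ^ 2 * Nat.card N := by
    rw [← h4', Finset.mul_sum]
    refine Finset.sum_congr rfl fun x _ => ?_
    rw [h x, Complex.normSq_mul, Complex.normSq_natCast]
    ring
  rw [h7, h3', ← Subgroup.card_mul_index N] at h6
  push_cast at h6
  have h8 : (0 : ℝ) < Nat.card N := by exact_mod_cast Nat.card_pos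
  have h9 : (c : ℝ) ^ 2 ≤ N.index := by nlinarith
  exact_mod_cast h9

/-- fully ramified sections are fully ramified on Sylow subgroups -/
theorem lemB [Fintype Z] (hχ : IsIrrCharacter H χ) (hθ : IsIrrCharacter Z θ) (he : e ^ 2 = Z.index)
    (hr : ∀ z : Z, χ z = (e : ℂ) * θ z) {p : ℕ} (hp : p.Prime) {P : Subgroup H} [Fintype P] (hZP : Z ≤ P)
    {k : ℕ} (hk : Z.relIndex P = p ^ k) (hcop : ¬ p ∣ P.index) :
    ∃ (ψ : P → ℂ) (a b : ℕ), IsIrrCharacter P ψ ∧ ¬ p ∣ a ∧ b ^ 2 = Z.relIndex P ∧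
      (∀ z : Z, ψ ⟨z, hZP z.2⟩ = (b : ℂ) * θ z) ∧ ∀ x : P, χ x = (a : ℂ) * ψ x := by
  classical
  haveI hNn : (Z.subgroupOf P).Normal := Subgroup.normal_subgroupOf
  haveI : Fintype (Z.subgroupOf P) := Fintype.ofFinite _
  obtain ⟨ψ, hψ, h0⟩ := exists_constituent_res (H := P) hχ
  set θ' : Z.subgroupOf P → ℂ := fun x => θ ⟨((x : P) : H), Subgroup.mem_subgroupOf.1 x.2⟩ with hθ'def
  have hθ' : IsIrrCharacter (Z.subgroupOf P) θ' := (isIrr_comp_iff (Subgroup.subgroupOfEquivOfLe hZP)).2 hθ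
  have hθinv : ∀ x : P, cj hNn x θ' = θ' := by
    intro x
    funext n
    exact congrFun (inv_of hχ he hr (x : H)) ⟨((n : P) : H), Subgroup.mem_subgroupOf.1 n.2⟩
  -- every character over θ in P
  have hover : ∀ ξ : P → ℂ, IsIrrCharacter P ξ → classInner (fun x : P => χ x) ξ ≠ 0 →
      classInner (fun n : Z.subgroupOf P => ξ n) θ' ≠ 0 := by
    intro ξ hξ hξ0
    obtain ⟨η, hη, hη0⟩ := exists_constituent_res (H := Z.subgroupOf P) hξ
    set ζ : Z → ℂ := fun z => η ((Subgroup.subgroupOfEquivOfLe hZP).symm z) with hζdef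
    have hζ : IsIrrCharacter Z ζ := (isIrr_comp_iff (Subgroup.subgroupOfEquivOfLe hZP).symm).2 hη
    have e1 : (fun x : Z.subgroupOf P => ζ ⟨((x : P) : H), Subgroup.mem_subgroupOf.1 x.2⟩) = η := by
      funext x
      show η ((Subgroup.subgroupOfEquivOfLe hZP).symm _) = η x
      congr 1
    have e2 : (fun n : Z.subgroupOf P => ξ n) = (fun x : Z.subgroupOf P => (fun z : Z => ξ ⟨z, hZP z.2⟩) ⟨((x : P) : H), Subgroup.mem_subgroupOf.1 x.2⟩) := rfl
    have h1 : classInner (fun z : Z => ξ ⟨z, hZP z.2⟩) ζ ≠ 0 := by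
      rw [← ci_subgroupOf hZP, e1, ← e2]
      exact hη0
    have h2 := trans_const hZP hξ hζ h1 (IsIrr.isCharacter hχ) hξ0
    have h3 : (fun z : Z => χ z) = (e : ℂ) • θ := funext fun z => hr z
    have h4 : θ = ζ := by
      by_contra hne
      apply h2
      rw [h3, ci_smul_left, ci_irr_ne hθ hζ hne, mul_zero]
    have h5 : θ' = η := by rw [← e1, ← h4]
    rw [h5]; exact hη0
  have h1 := hover ψ hψ h0
  obtain ⟨b, hb⟩ := ci_char_nat (IsChar.res (IsIrr.isCharacter hψ) (Z.subgroupOf P)) (IsIrr.isCharacter hθ')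
  have h2 := clifford_invariant hNn hψ hθ' h1 hθinv
  rw [hb] at h2
  have hψN : ∀ n : Z.subgroupOf P, ψ n = (b : ℂ) * θ' n := fun n => congrFun h2 n
  have hψZ : ∀ z : Z, ψ ⟨z, hZP z.2⟩ = (b : ℂ) * θ z := fun z => hψN ⟨⟨z, hZP z.2⟩, Subgroup.mem_subgroupOf.2 z.2⟩
  have hθ1 : θ 1 ≠ 0 := irr_one_ne hθ
  -- b is a power of p
  obtain ⟨b', hb', hbd⟩ := degree_dvd_invariant (Z.subgroupOf P) hψ hθ' (fun g n => congrFun (hθinv g) n) h1
  have hbb : b' = b := by
    have h3 := hψN 1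
    rw [OneMemClass.coe_one, hb'] at h3
    have h4 := mul_right_cancel₀ (irr_one_ne hθ') h3
    exact_mod_cast h4
  rw [hbb] at hbd
  have hbd' : b ∣ p ^ k := by rw [← hk]; exact hbd
  obtain ⟨j, hjk, hj⟩ := (Nat.dvd_prime_pow hp).1 hbd'
  have hle : b ^ 2 ≤ p ^ k := by rw [← hk]; exact res_norm_le (Z.subgroupOf P) hψ hθ' hψN
  -- the multiplicity
  obtain ⟨a, ha⟩ := ci_char_nat (IsChar.res (IsIrr.isCharacter hχ) P) (IsIrr.isCharacter hψ)
  have hind : indFun P ψ = (a : ℂ) • χ := by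
    apply ext_inner (ind_isClass P ψ) (isClass_smul _ _ (IsIrr.isClass hχ))
    intro ξ hξ
    rw [frobenius P ψ ξ (IsIrr.isClass hξ), ci_smul_left, ← ci_conj_symm]
    by_cases hξχ : ξ = χ
    · rw [hξχ, ha, ci_irr_self hχ]; simp
    · rw [ci_irr_ne hχ hξ (fun h => hξχ h.symm), mul_zero]
      by_contra h3
      apply hξχ
      have h4 : classInner (fun x : P => ξ x) ψ ≠ 0 := fun h => h3 (by rw [h, map_zero])
      have h5 : classInner (fun z : Z => ψ ⟨z, hZP z.2⟩) θ ≠ 0 := by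
        rw [show (fun z : Z => ψ ⟨z, hZP z.2⟩) = (b : ℂ) • θ from funext hψZ, ci_smul_left, ci_irr_self hθ, mul_one]
        rw [hb] at h1
        exact h1
      exact only hχ hθ he hr hξ (trans_const hZP hψ hθ h5 (IsIrr.isCharacter hξ) h4)
  have hdeg : a * e = P.index * b := by
    have h3 := congrFun hind 1
    rw [ind_one, Pi.smul_apply, smul_eq_mul] at h3
    have h4 := hr 1
    rw [OneMemClass.coe_one] at h4
    have h5 := hψZ 1
    have h6 : ψ 1 = (b : ℂ) * θ 1 := h5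
    rw [h6, h4, ← mul_assoc, ← mul_assoc] at h3
    have h7 := mul_right_cancel₀ hθ1 h3
    exact_mod_cast h7.symm
  have hee : e ^ 2 = p ^ k * P.index := by rw [he, ← Subgroup.relIndex_mul_index hZP, hk]
  have ha0 : a ≠ 0 := by
    rintro rfl
    rw [ha, Nat.cast_zero] at h0
    exact h0 rfl
  have he0 : e ≠ 0 := e_ne he
  have hPi0 : P.index ≠ 0 := Subgroup.index_ne_zero_of_finite
  have hPv : P.index.factorization p = 0 := Nat.factorization_eq_zero_of_not_dvd hcop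
  have hv1 : a.factorization p + e.factorization p = j := by
    have h3 := congrArg (fun m => m.factorization p) hdeg
    rw [Nat.factorization_mul ha0 he0, Nat.factorization_mul hPi0 (by rw [hj]; exact (pow_pos hp.pos _).ne'), Finsupp.add_apply,
      Finsupp.add_apply, hPv, zero_add, hj, hp.factorization_pow] at h3
    simpa using h3
  have hv2 : 2 * e.factorization p = k := by
    have h3 := congrArg (fun m => m.factorization p) hee
    rw [Nat.factorization_pow, Nat.factorization_mul (pow_pos hp.pos _).ne' hPi0, Finsupp.add_apply, hPv, add_zero,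
      hp.factorization_pow] at h3
    simpa using h3
  have hjk2 : 2 * j ≤ k := by
    rw [hj, ← pow_mul] at hle
    have := (Nat.pow_le_pow_iff_right hp.one_lt).1 hle
    omega
  have hbk : b ^ 2 = Z.relIndex P := by
    rw [hj, hk, ← pow_mul]
    congr 1
    omega
  refine ⟨ψ, a, b, hψ, ?_, hbk, hψZ, ?_⟩
  · intro hd
    have := hp.factorization_pos_of_dvd ha0 hd
    omega
  · have h3 : (fun x : P => χ x) = (a : ℂ) • ψ := by
      apply ext_inner (IsClass.res (IsIrr.isClass hχ) P) (isClass_smul _ _ (IsIrr.isClass hψ))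
      intro ξ hξ
      rw [ci_smul_left]
      by_cases hξψ : ξ = ψ
      · rw [hξψ, ha, ci_irr_self hψ, mul_one]
      · rw [ci_irr_ne hψ hξ (fun h => hξψ h.symm), mul_zero]
        by_contra h4
        exact hξψ (only hψ hθ' (by exact hbk) hψN hξ (hover ξ hξ h4))
    exact fun x => congrFun h3 x

end B

section Main

variable {H : Type*} [Group H] [Fintype H] {Z : Subgroup H} [hZ : Z.Normal] {χ : H → ℂ} {θ : Z → ℂ} {e : ℕ}

theorem quot_solvable (hχ : IsIrrCharacter H χ) (hθ : IsIrrCharacter Z θ) (he : e ^ 2 = Z.index)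
    (hr : ∀ z : Z, χ z = (e : ℂ) * θ z) {K : Subgroup H} [hK : K.Normal] [Fintype K] (hZK : Z ≤ K)
    {φ : K → ℂ} (hφ : IsCharacter K φ) (hind : indFun K φ = χ) : Group.IsSolvable (H ⧸ K) := by
  classical
  apply Cfsg.Agent.S0006.result
  intro p hp
  haveI : Fact p.Prime := ⟨hp⟩
  haveI : Fintype Z := Fintype.ofFinite _
  obtain ⟨P₀⟩ : Nonempty (Sylow p H) := inferInstance
  -- P and Q
  obtain ⟨P, hP⟩ : ∃ P : Subgroup H, P = (P₀ : Subgroup H) ⊔ Z := ⟨_, rfl⟩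
  have hZP : Z ≤ P := by rw [hP]; exact le_sup_right
  have hP₀P : (P₀ : Subgroup H) ≤ P := by rw [hP]; exact le_sup_left
  haveI : Fintype P := Fintype.ofFinite _
  have hPidx : ¬ p ∣ P.index := fun h => P₀.not_dvd_index (h.trans (Subgroup.index_dvd_of_le hP₀P))
  obtain ⟨k, hk⟩ : ∃ k, Z.relIndex P = p ^ k := by
    have h1 : Z.relIndex P = Z.relIndex (P₀ : Subgroup H) := by
      rw [hP]
      exact Cfsg.Agent.H1.Basic.relIndex_sup_of_le_normalizer (Subgroup.le_normalizer_of_normal)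
    obtain ⟨n, hn⟩ := IsPGroup.iff_card.1 P₀.isPGroup'
    have h2 : Z.relIndex (P₀ : Subgroup H) ∣ p ^ n := by
      rw [← hn]; exact Subgroup.relIndex_dvd_card _ _
    obtain ⟨k, -, hk⟩ := (Nat.dvd_prime_pow hp).1 h2
    exact ⟨k, h1.trans hk⟩
  obtain ⟨ψ, a, b, hψ, hpa, hb, hψZ, hχP⟩ := lemB hχ hθ he hr hp hZP hk hPidx
  obtain ⟨Q, hQ⟩ : ∃ Q : Subgroup H, Q = P ⊓ K := ⟨_, rfl⟩
  have hQP : Q ≤ P := by rw [hQ]; exact inf_le_left
  have hQK : Q ≤ K := by rw [hQ]; exact inf_le_right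
  have hZQ : Z ≤ Q := by rw [hQ]; exact le_inf hZP hZK
  haveI : Fintype Q := Fintype.ofFinite _
  have hPN : P ≤ Subgroup.normalizer (Q : Set H) := by
    intro x hx
    rw [Subgroup.mem_normalizer_iff]
    intro q
    rw [hQ, Subgroup.mem_inf, Subgroup.mem_inf]
    constructor
    · rintro ⟨h1, h2⟩
      exact ⟨mul_mem (mul_mem hx h1) (inv_mem hx), hK.conj_mem q h2 x⟩
    · rintro ⟨h1, h2⟩
      have h3 := mul_mem (mul_mem (inv_mem hx) h1) hx
      have h4 := hK.conj_mem _ h2 x⁻¹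
      have e1 : x⁻¹ * (x * q * x⁻¹) * x = q := by group
      have e2 : x⁻¹ * (x * q * x⁻¹) * x⁻¹⁻¹ = q := by group
      rw [e1] at h3
      rw [e2] at h4
      exact ⟨h3, h4⟩
  have hχ1 : χ 1 = (K.index : ℂ) * φ 1 := by rw [← hind, ind_one]
  obtain ⟨ν, hν, hν0⟩ := exists_constituent_res (H := Q) hχ
  haveI hQPn : (Q.subgroupOf P).Normal := by
    refine ⟨fun q hq x => ?_⟩
    rw [Subgroup.mem_subgroupOf] at hq ⊢
    exact (Subgroup.mem_normalizer_iff.1 (hPN x.2) q).1 hq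
  haveI hZPn : (Z.subgroupOf P).Normal := Subgroup.normal_subgroupOf
  haveI : Fintype (Z.subgroupOf P) := Fintype.ofFinite _
  haveI : Fintype (Q.subgroupOf P) := Fintype.ofFinite _
  have ha0 : (a : ℂ) ≠ 0 := by
    intro h
    apply hpa
    have : a = 0 := by exact_mod_cast h
    rw [this]; exact dvd_zero p
  let up : (Q → ℂ) → (Q.subgroupOf P → ℂ) := fun ξ x => ξ ⟨((x : P) : H), Subgroup.mem_subgroupOf.1 x.2⟩
  have hup : ∀ ξ : Q → ℂ, IsIrrCharacter Q ξ → IsIrrCharacter (Q.subgroupOf P) (up ξ) := fun ξ hξ =>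
    (isIrr_comp_iff (Subgroup.subgroupOfEquivOfLe hQP)).2 hξ
  have hin : ∀ ξ : Q → ℂ, classInner (fun q : Q => χ q) ξ = (a : ℂ) * classInner (fun q : Q.subgroupOf P => ψ q) (up ξ) := by
    intro ξ
    have e1 : (fun q : Q => χ q) = (a : ℂ) • (fun q : Q => ψ ⟨q, hQP q.2⟩) := funext fun q => hχP ⟨q, hQP q.2⟩
    rw [e1, ci_smul_left, ← ci_subgroupOf hQP]
  have hup0 : ∀ ξ : Q → ℂ, classInner (fun q : Q => χ q) ξ ≠ 0 → classInner (fun q : Q.subgroupOf P => ψ q) (up ξ) ≠ 0 := by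
    intro ξ h1 h2
    rw [hin, h2, mul_zero] at h1
    exact h1 rfl
  have hθ' : IsIrrCharacter (Z.subgroupOf P) (fun x => θ ⟨((x : P) : H), Subgroup.mem_subgroupOf.1 x.2⟩) :=
    (isIrr_comp_iff (Subgroup.subgroupOfEquivOfLe hZP)).2 hθ
  have hZQP : Z.subgroupOf P ≤ Q.subgroupOf P := fun x hx => Subgroup.mem_subgroupOf.2 (hZQ (Subgroup.mem_subgroupOf.1 hx))
  obtain ⟨d, hd, hds, hψ1⟩ := lemA hψ hθ' (show b ^ 2 = (Z.subgroupOf P).index from hb)
    (fun z => hψZ ⟨((z : P) : H), Subgroup.mem_subgroupOf.1 z.2⟩) hZQP (hup ν hν) (hup0 ν hν0)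
  -- conjugacy of constituents
  have hconj : ∀ ξ : Q → ℂ, IsIrrCharacter Q ξ → classInner (fun q : Q => χ q) ξ ≠ 0 →
      ∃ x ∈ P, ∀ (q : H) (hq : q ∈ Q) (hq' : x * q * x⁻¹ ∈ Q), ξ ⟨q, hq⟩ = ν ⟨x * q * x⁻¹, hq'⟩ := by
    intro ξ hξ h1
    obtain ⟨x, hx⟩ := eq_cj_of_constituents hQPn hψ (hup ν hν) (hup ξ hξ) (hup0 ν hν0) (hup0 ξ h1)
    refine ⟨x, x.2, fun q hq hq' => ?_⟩
    exact congrFun hx ⟨⟨q, hQP hq⟩, Subgroup.mem_subgroupOf.2 hq⟩
  have hdeg1 : ∀ ξ : Q → ℂ, IsIrrCharacter Q ξ → classInner (fun q : Q => χ q) ξ ≠ 0 → ξ 1 = ν 1 := by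
    intro ξ hξ h1
    obtain ⟨x, hx, h2⟩ := hconj ξ hξ h1
    have h3 := h2 1 Q.one_mem (by rw [mul_one, mul_inv_cancel]; exact Q.one_mem)
    have e1 : (⟨x * 1 * x⁻¹, by rw [mul_one, mul_inv_cancel]; exact Q.one_mem⟩ : Q) = 1 := by
      apply Subtype.ext
      show x * 1 * x⁻¹ = 1
      group
    rw [e1] at h3
    exact h3
  have hφχ : ∀ ξ : Q → ℂ, IsIrrCharacter Q ξ → classInner (fun q : Q => φ ⟨q, hQK q.2⟩) ξ ≠ 0 →
      classInner (fun q : Q => χ q) ξ ≠ 0 := by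
    intro ξ hξ h1
    have hr' : ∀ {f : K → ℂ}, IsCharacter K f → IsCharacter Q (fun z : Q => f ⟨z, hQK z.2⟩) := by
      intro f hf
      obtain ⟨n, ρ, hρ⟩ := hf
      refine ⟨n, ρ.comp (Subgroup.inclusion hQK), ?_⟩
      funext z
      exact congrFun hρ (Subgroup.inclusion hQK z)
    choose m hm using fun x : H => ci_char_nat (hr' (cj_isChar hK x hφ)) (IsIrr.isCharacter hξ)
    have h2 : (fun q : Q => χ q) = (Nat.card K : ℂ)⁻¹ • ∑ x : H, (fun q : Q => cj hK x φ ⟨q, hQK q.2⟩) := by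
      funext q
      have := ind_res hK φ ⟨q, hQK q.2⟩
      rw [Pi.smul_apply, Finset.sum_apply, smul_eq_mul, ← this, hind]
    rw [h2, ci_smul_left, ci_sum_left, Finset.sum_congr rfl (fun x _ => hm x)]
    have h3 : m 1 ≠ 0 := by
      intro h4
      apply h1
      have h5 := hm 1
      rw [h4, Nat.cast_zero, cj_one] at h5
      exact h5
    have h6 : ∑ x : H, m x ≠ 0 := by
      intro h7
      exact h3 (Finset.sum_eq_zero_iff.1 h7 1 (Finset.mem_univ _))
    apply mul_ne_zero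
    · exact inv_ne_zero (Nat.cast_ne_zero.2 Nat.card_pos.ne')
    · exact_mod_cast h6
  obtain ⟨M, hM⟩ : ∃ M : ℕ, φ 1 = M * ν 1 := by
    haveI : Fintype (IrrCharacter Q) := Fintype.ofFinite _
    have hr' : IsCharacter Q (fun z : Q => φ ⟨z, hQK z.2⟩) := by
      obtain ⟨n, ρ, hρ⟩ := hφ
      refine ⟨n, ρ.comp (Subgroup.inclusion hQK), ?_⟩
      funext z
      exact congrFun hρ (Subgroup.inclusion hQK z)
    obtain ⟨m, hm1, hm2⟩ := IsChar.eq_sum_nat hr'
    refine ⟨∑ ξ : IrrCharacter Q, m ξ, ?_⟩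
    have h1 := congrFun hm2 1
    rw [Finset.sum_apply] at h1
    have h2 : φ 1 = ∑ ξ : IrrCharacter Q, (m ξ : ℂ) * (ξ : Q → ℂ) 1 := h1
    rw [h2]
    push_cast
    rw [Finset.sum_mul]
    refine Finset.sum_congr rfl fun ξ _ => ?_
    by_cases h3 : m ξ = 0
    · rw [h3]; simp
    · rw [hdeg1 ξ ξ.2 (hφχ ξ ξ.2 (by rw [hm1 ξ]; exact_mod_cast h3))]
  -- d = 1
  have hν1 : ν 1 ≠ 0 := irr_one_ne hν
  obtain ⟨n', hn'⟩ : Q.relIndex P ∣ K.index := by
    rw [hQ, Subgroup.inf_relIndex_left]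
    exact Subgroup.relIndex_dvd_index_of_normal K P
  have hs0 : (inertia hQPn (up ν)).index ≠ 0 := Subgroup.index_ne_zero_of_finite
  have hd0 : d ≠ 0 := by
    rintro rfl
    rw [Nat.cast_zero] at hd
    exact hup0 ν hν0 hd
  have hadn : a = d * (n' * M) := by
    have h1 := hχP 1
    rw [OneMemClass.coe_one, hχ1, hM, hψ1] at h1
    have h2 : up ν 1 = ν 1 := rfl
    rw [h2, ← mul_assoc, ← mul_assoc] at h1
    have h3 := mul_right_cancel₀ hν1 h1
    have h4 : K.index * M = a * (d * (inertia hQPn (up ν)).index) := by exact_mod_cast h3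
    rw [hn', show Q.relIndex P = (Q.subgroupOf P).index from rfl, ← hds] at h4
    have h5 : d * (inertia hQPn (up ν)).index * (d * (n' * M)) = d * (inertia hQPn (up ν)).index * a := by
      linarith [h4, show d ^ 2 * (inertia hQPn (up ν)).index * n' * M =
        d * (inertia hQPn (up ν)).index * (d * (n' * M)) by ring]
    exact (Nat.eq_of_mul_eq_mul_left (Nat.pos_of_ne_zero (mul_ne_zero hd0 hs0)) h5).symm
  obtain ⟨k', hk'⟩ : ∃ k', Q.relIndex P = p ^ k' := by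
    have h1 : Q.relIndex P ∣ p ^ k := by rw [← hk]; exact Subgroup.relIndex_dvd_of_le_left P hZQ
    obtain ⟨k', -, h2⟩ := (Nat.dvd_prime_pow hp).1 h1
    exact ⟨k', h2⟩
  have hd1 : d = 1 := by
    have h1 : d ∣ p ^ k' := by
      rw [← hk', show Q.relIndex P = (Q.subgroupOf P).index from rfl, ← hds, pow_two, mul_assoc]
      exact Dvd.intro _ rfl
    obtain ⟨j, -, hj⟩ := (Nat.dvd_prime_pow hp).1 h1
    rcases Nat.eq_zero_or_pos j with h2 | h2
    · rw [hj, h2, pow_zero]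
    · exfalso
      apply hpa
      rw [hadn, hj]
      exact (dvd_pow_self p h2.ne').mul_right _
  have hinert : inertia hQPn (up ν) ≤ Q.subgroupOf P := by
    rw [hd1, one_pow, one_mul] at hds
    have h1 := le_inertia hQPn (IsIrr.isClass (hup ν hν))
    have h2 := Subgroup.relIndex_mul_index h1
    rw [hds] at h2
    have h3 : (Q.subgroupOf P).relIndex (inertia hQPn (up ν)) = 1 := by
      have h4 : 0 < (Q.subgroupOf P).index := Nat.pos_of_ne_zero Subgroup.index_ne_zero_of_finite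
      nlinarith
    exact Subgroup.relIndex_eq_one.1 h3
  -- the stabilizer of ν
  let T : Subgroup H :=
    { carrier := {g | g ∈ Subgroup.normalizer (Q : Set H) ∧ ∀ (q : H) (hq : q ∈ Q) (hq' : g * q * g⁻¹ ∈ Q),
        ν ⟨g * q * g⁻¹, hq'⟩ = ν ⟨q, hq⟩}
      one_mem' := ⟨Subgroup.one_mem _, fun q hq hq' => by congr 1; apply Subtype.ext; show 1 * q * 1⁻¹ = q; group⟩
      mul_mem' := by
        rintro g g' ⟨h1, h2⟩ ⟨h3, h4⟩
        refine ⟨mul_mem h1 h3, fun q hq hq' => ?_⟩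
        have hm : g' * q * g'⁻¹ ∈ Q := (Subgroup.mem_normalizer_iff.1 h3 q).1 hq
        have hm2 : g * (g' * q * g'⁻¹) * g⁻¹ ∈ Q := (Subgroup.mem_normalizer_iff.1 h1 _).1 hm
        rw [← h4 q hq hm, ← h2 _ hm hm2]
        congr 1
        apply Subtype.ext
        show g * g' * q * (g * g')⁻¹ = g * (g' * q * g'⁻¹) * g⁻¹
        group
      inv_mem' := by
        rintro g ⟨h1, h2⟩
        refine ⟨inv_mem h1, fun q hq hq' => ?_⟩
        have e1 : g * (g⁻¹ * q * g⁻¹⁻¹) * g⁻¹ = q := by group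
        have h3 := h2 _ hq' (by rw [e1]; exact hq)
        rw [← h3]
        congr 1
        exact Subtype.ext e1 }
  have hTN : T ≤ Subgroup.normalizer (Q : Set H) := fun g hg => hg.1
  have hQT : Q ≤ T := by
    intro x hx
    refine ⟨Subgroup.le_normalizer hx, fun q hq hq' => ?_⟩
    exact IsIrr.isClass hν ⟨q, hq⟩ ⟨x, hx⟩
  have hTP : T ⊓ P ≤ Q := by
    rintro x ⟨⟨h1, h2⟩, h3⟩
    have h4 : (⟨x, h3⟩ : P) ∈ inertia hQPn (up ν) := by
      rw [mem_inertia]
      funext q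
      exact h2 ((q : P) : H) (Subgroup.mem_subgroupOf.1 q.2) _
    exact Subgroup.mem_subgroupOf.1 (hinert h4)
  have hNTP : ∀ g ∈ Subgroup.normalizer (Q : Set H), ∃ t ∈ T, t⁻¹ * g ∈ P := by
    intro g hg
    have hgm : ∀ q ∈ Q, g * q * g⁻¹ ∈ Q := fun q hq => (Subgroup.mem_normalizer_iff.1 hg q).1 hq
    let cg : Q ≃* Q :=
      { toFun := fun q => ⟨g * q * g⁻¹, hgm q q.2⟩
        invFun := fun q => ⟨g⁻¹ * q * g⁻¹⁻¹, (Subgroup.mem_normalizer_iff.1 (inv_mem hg) q).1 q.2⟩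
        left_inv := fun q => by apply Subtype.ext; show g⁻¹ * (g * q * g⁻¹) * g⁻¹⁻¹ = q; group
        right_inv := fun q => by apply Subtype.ext; show g * (g⁻¹ * q * g⁻¹⁻¹) * g⁻¹ = q; group
        map_mul' := fun q q' => by apply Subtype.ext; show g * (q * q') * g⁻¹ = g * q * g⁻¹ * (g * q' * g⁻¹); group }
    have hξ : IsIrrCharacter Q (fun q => ν (cg q)) := (isIrr_comp_iff cg).2 hν
    have hξ0 : classInner (fun q : Q => χ q) (fun q => ν (cg q)) ≠ 0 := by
      have h1 : classInner (fun q : Q => χ q) (fun q => ν (cg q)) = classInner (fun q : Q => χ q) ν := by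
        rw [classInner, classInner]
        congr 1
        rw [← Equiv.sum_comp cg.toEquiv (fun q : Q => χ q * conj (ν q))]
        refine Finset.sum_congr rfl fun q _ => ?_
        have h2 : χ ((cg.toEquiv q : Q) : H) = χ q := IsIrr.isClass hχ (q : H) g
        rw [h2]
        rfl
      rw [h1]; exact hν0
    obtain ⟨x, hx, h1⟩ := hconj _ hξ hξ0
    have hxN := hPN hx
    refine ⟨g * x⁻¹, ⟨mul_mem hg (inv_mem hxN), fun q hq hq' => ?_⟩, ?_⟩
    · have hq1 : x⁻¹ * q * x⁻¹⁻¹ ∈ Q := (Subgroup.mem_normalizer_iff.1 (inv_mem hxN) q).1 hq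
      have e1 : x * (x⁻¹ * q * x⁻¹⁻¹) * x⁻¹ = q := by group
      have h2 := h1 _ hq1 (by rw [e1]; exact hq)
      have e2 : (⟨x * (x⁻¹ * q * x⁻¹⁻¹) * x⁻¹, by rw [e1]; exact hq⟩ : Q) = ⟨q, hq⟩ := Subtype.ext e1
      rw [e2] at h2
      rw [← h2]
      show ν ⟨g * x⁻¹ * q * (g * x⁻¹)⁻¹, hq'⟩ = ν ⟨g * (x⁻¹ * q * x⁻¹⁻¹) * g⁻¹, _⟩
      congr 1
      apply Subtype.ext
      show g * x⁻¹ * q * (g * x⁻¹)⁻¹ = g * (x⁻¹ * q * x⁻¹⁻¹) * g⁻¹
      group
    · have : (g * x⁻¹)⁻¹ * g = x := by group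
      rw [this]; exact hx
  have hpT : ¬ p ∣ Q.relIndex T := by
    have h1 : P.relIndex (Subgroup.normalizer (Q : Set H)) = P.relIndex T :=
      Cfsg.Agent.H1.Basic.relIndex_eq_of_factor hTN hNTP
    have h2 : P.relIndex (Subgroup.normalizer (Q : Set H)) ∣ P.index := Subgroup.relIndex_dvd_index_of_le hPN
    have h3 : P.relIndex T = Q.relIndex T := by
      rw [← Subgroup.inf_relIndex_left, show T ⊓ P = Q from le_antisymm hTP (le_inf hQT hQP)]
    rw [← h3, ← h1]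
    exact fun h => hPidx (h.trans h2)
  -- Frattini
  have hfrat : Subgroup.normalizer (Q : Set H) ⊔ K = ⊤ := by
    have h1 : (P₀ : Subgroup H).relIndex (K ⊔ P₀) = (P₀ : Subgroup H).relIndex K := by
      apply Cfsg.Agent.H1.Basic.relIndex_eq_of_factor le_sup_left
      intro l hl
      rw [← SetLike.mem_coe, Subgroup.coe_mul_of_right_le_normalizer_left K _ Subgroup.le_normalizer_of_normal] at hl
      obtain ⟨y, hy, s, hs, rfl⟩ := Set.mem_mul.1 hl
      exact ⟨y, hy, by rw [inv_mul_cancel_left]; exact hs⟩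
    have h2 : ¬ p ∣ ((P₀ : Subgroup H).subgroupOf K).index := by
      intro h
      have h3 : p ∣ (P₀ : Subgroup H).relIndex (K ⊔ P₀) := by rw [h1]; exact h
      exact P₀.not_dvd_index (h3.trans (Subgroup.relIndex_dvd_index_of_le le_sup_right))
    have h3 : IsPGroup p ((P₀ : Subgroup H).subgroupOf K) := P₀.isPGroup'.comap_of_injective K.subtype Subtype.val_injective
    have h4 := Sylow.normalizer_sup_eq_top (h3.toSylow h2)
    have h5 : ((h3.toSylow h2 : Sylow p K) : Subgroup K).map K.subtype = (P₀ : Subgroup H) ⊓ K := by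
      rw [IsPGroup.toSylow_coe, Subgroup.subgroupOf_map_subtype]
    rw [h5] at h4
    have h6 : Q = ((P₀ : Subgroup H) ⊓ K) ⊔ Z := by
      rw [hQ, hP]
      apply le_antisymm
      · intro x hx
        obtain ⟨hx1, hx2⟩ := Subgroup.mem_inf.1 hx
        rw [← SetLike.mem_coe, Subgroup.mul_normal] at hx1
        obtain ⟨s, hs, z, hz, rfl⟩ := Set.mem_mul.1 hx1
        refine mul_mem (Subgroup.mem_sup_left ⟨hs, ?_⟩) (Subgroup.mem_sup_right hz)
        have := mul_mem hx2 (inv_mem (hZK hz))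
        rwa [mul_inv_cancel_right] at this
      · exact sup_le (inf_le_inf_right K le_sup_left) (le_inf le_sup_right hZK)
    rw [eq_top_iff, ← h4]
    apply sup_le_sup_right
    intro g hg
    have hone : ∀ y ∈ Subgroup.normalizer (((P₀ : Subgroup H) ⊓ K : Subgroup H) : Set H), ∀ x ∈ Q, y * x * y⁻¹ ∈ Q := by
      intro y hy x hx
      rw [h6, ← SetLike.mem_coe, Subgroup.mul_normal] at hx
      obtain ⟨s, hs, z, hz, rfl⟩ := Set.mem_mul.1 hx
      have e1 : y * (s * z) * y⁻¹ = (y * s * y⁻¹) * (y * z * y⁻¹) := by group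
      rw [e1, h6]
      exact mul_mem (Subgroup.mem_sup_left ((Subgroup.mem_normalizer_iff.1 hy s).1 hs)) (Subgroup.mem_sup_right (hZ.conj_mem z hz y))
    rw [Subgroup.mem_normalizer_iff]
    intro x
    refine ⟨hone g hg x, fun h => ?_⟩
    have h7 := hone g⁻¹ (inv_mem hg) _ h
    have e1 : g⁻¹ * (g * x * g⁻¹) * g⁻¹⁻¹ = x := by group
    rwa [e1] at h7
  obtain ⟨U, hU⟩ : ∃ U : Subgroup H, U = T ⊔ K := ⟨_, rfl⟩
  have hKU : K ≤ U := by rw [hU]; exact le_sup_right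
  have hTU : T ≤ U := by rw [hU]; exact le_sup_left
  have hpU : ¬ p ∣ K.relIndex U := by
    rw [hU, Cfsg.Agent.H1.Basic.relIndex_sup_of_le_normalizer Subgroup.le_normalizer_of_normal]
    exact fun h => hpT (h.trans (Subgroup.relIndex_dvd_of_le_left T hQK))
  have hUP : U.index = U.relIndex P := by
    apply Cfsg.Agent.H1.Basic.index_eq_relIndex_of_factor
    intro g
    have hg : g⁻¹ ∈ Subgroup.normalizer (Q : Set H) ⊔ K := by rw [hfrat]; exact Subgroup.mem_top _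
    rw [← SetLike.mem_coe, sup_comm, Subgroup.coe_mul_of_right_le_normalizer_left K _ Subgroup.le_normalizer_of_normal] at hg
    obtain ⟨y, hy, n, hn, hyn⟩ := Set.mem_mul.1 hg
    obtain ⟨t, ht, htn⟩ := hNTP n hn
    refine ⟨(t⁻¹ * n)⁻¹, inv_mem htn, (y * t)⁻¹, inv_mem (mul_mem (hKU hy) (hTU ht)), ?_⟩
    rw [← mul_inv_rev, mul_assoc, mul_inv_cancel_left, hyn, inv_inv]
  obtain ⟨i, hi⟩ : ∃ i, U.index = p ^ i := by
    have h1 : U.index ∣ p ^ k' := by
      rw [hUP, ← hk']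
      exact Subgroup.relIndex_dvd_of_le_left P (hQT.trans hTU)
    obtain ⟨i, -, h2⟩ := (Nat.dvd_prime_pow hp).1 h1
    exact ⟨i, h2⟩
  refine ⟨U.map (QuotientGroup.mk' K), ?_⟩
  rw [Subgroup.index_map_eq U (QuotientGroup.mk'_surjective K) (by rw [QuotientGroup.ker_mk']; exact hKU), hi]
  congr 1
  rw [← Subgroup.index_eq_card, ← Subgroup.relIndex_mul_index hKU, hi,
    Nat.factorization_mul (fun h => hpU (by rw [h]; exact dvd_zero p)) (pow_pos hp.pos i).ne', Finsupp.add_apply,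
    Nat.factorization_eq_zero_of_not_dvd hpU, zero_add, hp.factorization_pow]
  simp

end Main

end Cfsg.Agent.H10.FullRam
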