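import Mathlib
import Cfsg.Agent.H10_FullRam2

/-!
H10_FullRam3: complements of Sylow subgroups from fully ramified characters.
-/

set_option autoImplicit false
set_option linter.style.haveILetI false
set_option linter.unusedSectionVars false

namespace Cfsg.Agent.H10.FullRam

open Cfsg Cfsg.Agent.H3.CharIrr Cfsg.Agent.H3.CharComplete Cfsg.Agent.H3.CharInd
  Cfsg.Agent.H3.CharBasic Cfsg.Agent.H3.CharInt Cfsg.Agent.H3.Clifford Cfsg.Agent.H3.CharQuot
  Cfsg.Agent.H3.CharMult Cfsg.Agent.H10.Char Cfsg.Agent.H10.BlockKer Cfsg.Agent.H3.Lift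
open scoped ComplexConjugate

variable {H : Type*} [Group H] [Fintype H] {Z : Subgroup H} [hZ : Z.Normal] {χ : H → ℂ} {θ : Z → ℂ} {e : ℕ}

/-- transport of functions to the subgroup of the subgroup -/
def up {P Q : Subgroup H} (_ : Q ≤ P) (ξ : Q → ℂ) : Q.subgroupOf P → ℂ :=
  fun x => ξ ⟨((x : P) : H), Subgroup.mem_subgroupOf.1 x.2⟩

theorem compl_of (hχ : IsIrrCharacter H χ) (hθ : IsIrrCharacter Z θ) (he : e ^ 2 = Z.index)
    (hr : ∀ z : Z, χ z = (e : ℂ) * θ z) {K : Subgroup H} [hK : K.Normal] (hZK : Z ≤ K)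
    {p : ℕ} (hp : p.Prime) (P₀ : Sylow p H)
    (hcase : ∀ (P Q : Subgroup H) (_ : P = (P₀ : Subgroup H) ⊔ Z) (_ : Q = P ⊓ K) (_ : Fintype P) (_ : Fintype Q)
      (_ : Fintype (Q.subgroupOf P)) (hQP : Q ≤ P) (hQPn : (Q.subgroupOf P).Normal) (hZP : Z ≤ P)
      (_ : (Z.subgroupOf P).Normal) (ψ : P → ℂ) (a b : ℕ)
      (_ : IsIrrCharacter P ψ) (_ : ¬ p ∣ a) (_ : b ^ 2 = Z.relIndex P)
      (_ : ∀ z : Z, ψ ⟨z, hZP z.2⟩ = (b : ℂ) * θ z) (_ : ∀ x : P, χ x = (a : ℂ) * ψ x)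
      (ν : Q → ℂ) (_ : IsIrrCharacter Q ν) (_ : classInner (fun q : Q => χ q) ν ≠ 0) (d : ℕ)
      (_ : classInner (fun q : Q.subgroupOf P => ψ q) (up hQP ν) = d)
      (_ : d ^ 2 * (inertia hQPn (up hQP ν)).index = (Q.subgroupOf P).index)
      (_ : ψ 1 = d * (inertia hQPn (up hQP ν)).index * up hQP ν 1), d = 1) :
    ∃ U : Subgroup H, K ≤ U ∧ (∃ i, U.index = p ^ i) ∧ ¬ p ∣ K.relIndex U := by
  classical
  haveI : Fact p.Prime := ⟨hp⟩
  haveI : Fintype Z := Fintype.ofFinite _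
  -- P and Q
  obtain ⟨P, hP⟩ : ∃ P : Subgroup H, P = (P₀ : Subgroup H) ⊔ Z := ⟨_, rfl⟩
  have hZP : Z ≤ P := by rw [hP]; exact le_sup_right
  have hP₀P : (P₀ : Subgroup H) ≤ P := by rw [hP]; exact le_sup_left
  haveI : Fintype P := Fintype.ofFinite _
  have hPidx : ¬ p ∣ P.index := fun h => P₀.not_dvd_index (h.trans (Subgroup.index_dvd_of_le hP₀P))
  obtain ⟨k, hk⟩ : ∃ k, Z.relIndex P = p ^ k := by
    have h1 : Z.relIndex P = Z.relIndex (P₀ : Subgroup H) := by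
      rw [hP]
      exact Cfsg.Agent.H1.Basic.relIndex_sup_of_le_normalizer (Subgroup.le_normalizer_of_normal)
    obtain ⟨n, hn⟩ := IsPGroup.iff_card.1 P₀.isPGroup'
    have h2 : Z.relIndex (P₀ : Subgroup H) ∣ p ^ n := by
      rw [← hn]; exact Subgroup.relIndex_dvd_card _ _
    obtain ⟨k, -, hk⟩ := (Nat.dvd_prime_pow hp).1 h2
    exact ⟨k, h1.trans hk⟩
  obtain ⟨ψ, a, b, hψ, hpa, hb, hψZ, hχP⟩ := lemB hχ hθ he hr hp hZP hk hPidx
  obtain ⟨Q, hQ⟩ : ∃ Q : Subgroup H, Q = P ⊓ K := ⟨_, rfl⟩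
  have hQP : Q ≤ P := by rw [hQ]; exact inf_le_left
  have hQK : Q ≤ K := by rw [hQ]; exact inf_le_right
  have hZQ : Z ≤ Q := by rw [hQ]; exact le_inf hZP hZK
  haveI : Fintype Q := Fintype.ofFinite _
  have hPN : P ≤ Subgroup.normalizer (Q : Set H) := by
    intro x hx
    rw [Subgroup.mem_normalizer_iff]
    intro q
    rw [hQ, Subgroup.mem_inf, Subgroup.mem_inf]
    constructor
    · rintro ⟨h1, h2⟩
      exact ⟨mul_mem (mul_mem hx h1) (inv_mem hx), hK.conj_mem q h2 x⟩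
    · rintro ⟨h1, h2⟩
      have h3 := mul_mem (mul_mem (inv_mem hx) h1) hx
      have h4 := hK.conj_mem _ h2 x⁻¹
      have e1 : x⁻¹ * (x * q * x⁻¹) * x = q := by group
      have e2 : x⁻¹ * (x * q * x⁻¹) * x⁻¹⁻¹ = q := by group
      rw [e1] at h3
      rw [e2] at h4
      exact ⟨h3, h4⟩
  obtain ⟨ν, hν, hν0⟩ := exists_constituent_res (H := Q) hχ
  haveI hQPn : (Q.subgroupOf P).Normal := by
    refine ⟨fun q hq x => ?_⟩
    rw [Subgroup.mem_subgroupOf] at hq ⊢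
    exact (Subgroup.mem_normalizer_iff.1 (hPN x.2) q).1 hq
  haveI hZPn : (Z.subgroupOf P).Normal := Subgroup.normal_subgroupOf
  haveI : Fintype (Z.subgroupOf P) := Fintype.ofFinite _
  haveI : Fintype (Q.subgroupOf P) := Fintype.ofFinite _
  have ha0 : (a : ℂ) ≠ 0 := by
    intro h
    apply hpa
    have : a = 0 := by exact_mod_cast h
    rw [this]; exact dvd_zero p
  have hup : ∀ ξ : Q → ℂ, IsIrrCharacter Q ξ → IsIrrCharacter (Q.subgroupOf P) (up hQP ξ) := fun ξ hξ =>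
    (isIrr_comp_iff (Subgroup.subgroupOfEquivOfLe hQP)).2 hξ
  have hin : ∀ ξ : Q → ℂ, classInner (fun q : Q => χ q) ξ = (a : ℂ) * classInner (fun q : Q.subgroupOf P => ψ q) (up hQP ξ) := by
    intro ξ
    have e1 : (fun q : Q => χ q) = (a : ℂ) • (fun q : Q => ψ ⟨q, hQP q.2⟩) := funext fun q => hχP ⟨q, hQP q.2⟩
    rw [e1, ci_smul_left, ← ci_subgroupOf hQP]
    rfl
  have hup0 : ∀ ξ : Q → ℂ, classInner (fun q : Q => χ q) ξ ≠ 0 → classInner (fun q : Q.subgroupOf P => ψ q) (up hQP ξ) ≠ 0 := by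
    intro ξ h1 h2
    rw [hin, h2, mul_zero] at h1
    exact h1 rfl
  have hθ' : IsIrrCharacter (Z.subgroupOf P) (fun x => θ ⟨((x : P) : H), Subgroup.mem_subgroupOf.1 x.2⟩) :=
    (isIrr_comp_iff (Subgroup.subgroupOfEquivOfLe hZP)).2 hθ
  have hZQP : Z.subgroupOf P ≤ Q.subgroupOf P := fun x hx => Subgroup.mem_subgroupOf.2 (hZQ (Subgroup.mem_subgroupOf.1 hx))
  obtain ⟨d, hd, hds, hψ1⟩ := lemA hψ hθ' (show b ^ 2 = (Z.subgroupOf P).index from hb)
    (fun z => hψZ ⟨((z : P) : H), Subgroup.mem_subgroupOf.1 z.2⟩) hZQP (hup ν hν) (hup0 ν hν0)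
  -- conjugacy of constituents
  have hconj : ∀ ξ : Q → ℂ, IsIrrCharacter Q ξ → classInner (fun q : Q => χ q) ξ ≠ 0 →
      ∃ x ∈ P, ∀ (q : H) (hq : q ∈ Q) (hq' : x * q * x⁻¹ ∈ Q), ξ ⟨q, hq⟩ = ν ⟨x * q * x⁻¹, hq'⟩ := by
    intro ξ hξ h1
    obtain ⟨x, hx⟩ := eq_cj_of_constituents hQPn hψ (hup ν hν) (hup ξ hξ) (hup0 ν hν0) (hup0 ξ h1)
    refine ⟨x, x.2, fun q hq hq' => ?_⟩
    exact congrFun hx ⟨⟨q, hQP hq⟩, Subgroup.mem_subgroupOf.2 hq⟩
  haveI hKn := hK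
  have hd1 : d = 1 := hcase P Q hP hQ ‹_› ‹_› ‹_› hQP hQPn hZP hZPn ψ a b hψ hpa hb hψZ hχP ν hν hν0 d hd hds hψ1
  obtain ⟨k', hk'⟩ : ∃ k', Q.relIndex P = p ^ k' := by
    have h1 : Q.relIndex P ∣ p ^ k := by rw [← hk]; exact Subgroup.relIndex_dvd_of_le_left P hZQ
    obtain ⟨k', -, h2⟩ := (Nat.dvd_prime_pow hp).1 h1
    exact ⟨k', h2⟩
  have hinert : inertia hQPn (up hQP ν) ≤ Q.subgroupOf P := by
    rw [hd1, one_pow, one_mul] at hds
    have h1 := le_inertia hQPn (IsIrr.isClass (hup ν hν))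
    have h2 := Subgroup.relIndex_mul_index h1
    rw [hds] at h2
    have h3 : (Q.subgroupOf P).relIndex (inertia hQPn (up hQP ν)) = 1 := by
      have h4 : 0 < (Q.subgroupOf P).index := Nat.pos_of_ne_zero Subgroup.index_ne_zero_of_finite
      nlinarith
    exact Subgroup.relIndex_eq_one.1 h3
  -- the stabilizer of ν
  let T : Subgroup H :=
    { carrier := {g | g ∈ Subgroup.normalizer (Q : Set H) ∧ ∀ (q : H) (hq : q ∈ Q) (hq' : g * q * g⁻¹ ∈ Q),
        ν ⟨g * q * g⁻¹, hq'⟩ = ν ⟨q, hq⟩}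
      one_mem' := ⟨Subgroup.one_mem _, fun q hq hq' => by congr 1; apply Subtype.ext; show 1 * q * 1⁻¹ = q; group⟩
      mul_mem' := by
        rintro g g' ⟨h1, h2⟩ ⟨h3, h4⟩
        refine ⟨mul_mem h1 h3, fun q hq hq' => ?_⟩
        have hm : g' * q * g'⁻¹ ∈ Q := (Subgroup.mem_normalizer_iff.1 h3 q).1 hq
        have hm2 : g * (g' * q * g'⁻¹) * g⁻¹ ∈ Q := (Subgroup.mem_normalizer_iff.1 h1 _).1 hm
        rw [← h4 q hq hm, ← h2 _ hm hm2]
        congr 1
        apply Subtype.ext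
        show g * g' * q * (g * g')⁻¹ = g * (g' * q * g'⁻¹) * g⁻¹
        group
      inv_mem' := by
        rintro g ⟨h1, h2⟩
        refine ⟨inv_mem h1, fun q hq hq' => ?_⟩
        have e1 : g * (g⁻¹ * q * g⁻¹⁻¹) * g⁻¹ = q := by group
        have h3 := h2 _ hq' (by rw [e1]; exact hq)
        rw [← h3]
        congr 1
        exact Subtype.ext e1 }
  have hTN : T ≤ Subgroup.normalizer (Q : Set H) := fun g hg => hg.1
  have hQT : Q ≤ T := by
    intro x hx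
    refine ⟨Subgroup.le_normalizer hx, fun q hq hq' => ?_⟩
    exact IsIrr.isClass hν ⟨q, hq⟩ ⟨x, hx⟩
  have hTP : T ⊓ P ≤ Q := by
    rintro x ⟨⟨h1, h2⟩, h3⟩
    have h4 : (⟨x, h3⟩ : P) ∈ inertia hQPn (up hQP ν) := by
      rw [mem_inertia]
      funext q
      exact h2 ((q : P) : H) (Subgroup.mem_subgroupOf.1 q.2) _
    exact Subgroup.mem_subgroupOf.1 (hinert h4)
  have hNTP : ∀ g ∈ Subgroup.normalizer (Q : Set H), ∃ t ∈ T, t⁻¹ * g ∈ P := by
    intro g hg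
    have hgm : ∀ q ∈ Q, g * q * g⁻¹ ∈ Q := fun q hq => (Subgroup.mem_normalizer_iff.1 hg q).1 hq
    let cg : Q ≃* Q :=
      { toFun := fun q => ⟨g * q * g⁻¹, hgm q q.2⟩
        invFun := fun q => ⟨g⁻¹ * q * g⁻¹⁻¹, (Subgroup.mem_normalizer_iff.1 (inv_mem hg) q).1 q.2⟩
        left_inv := fun q => by apply Subtype.ext; show g⁻¹ * (g * q * g⁻¹) * g⁻¹⁻¹ = q; group
        right_inv := fun q => by apply Subtype.ext; show g * (g⁻¹ * q * g⁻¹⁻¹) * g⁻¹ = q; group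
        map_mul' := fun q q' => by apply Subtype.ext; show g * (q * q') * g⁻¹ = g * q * g⁻¹ * (g * q' * g⁻¹); group }
    have hξ : IsIrrCharacter Q (fun q => ν (cg q)) := (isIrr_comp_iff cg).2 hν
    have hξ0 : classInner (fun q : Q => χ q) (fun q => ν (cg q)) ≠ 0 := by
      have h1 : classInner (fun q : Q => χ q) (fun q => ν (cg q)) = classInner (fun q : Q => χ q) ν := by
        rw [classInner, classInner]
        congr 1
        rw [← Equiv.sum_comp cg.toEquiv (fun q : Q => χ q * conj (ν q))]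
        refine Finset.sum_congr rfl fun q _ => ?_
        have h2 : χ ((cg.toEquiv q : Q) : H) = χ q := IsIrr.isClass hχ (q : H) g
        rw [h2]
        rfl
      rw [h1]; exact hν0
    obtain ⟨x, hx, h1⟩ := hconj _ hξ hξ0
    have hxN := hPN hx
    refine ⟨g * x⁻¹, ⟨mul_mem hg (inv_mem hxN), fun q hq hq' => ?_⟩, ?_⟩
    · have hq1 : x⁻¹ * q * x⁻¹⁻¹ ∈ Q := (Subgroup.mem_normalizer_iff.1 (inv_mem hxN) q).1 hq
      have e1 : x * (x⁻¹ * q * x⁻¹⁻¹) * x⁻¹ = q := by group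
      have h2 := h1 _ hq1 (by rw [e1]; exact hq)
      have e2 : (⟨x * (x⁻¹ * q * x⁻¹⁻¹) * x⁻¹, by rw [e1]; exact hq⟩ : Q) = ⟨q, hq⟩ := Subtype.ext e1
      rw [e2] at h2
      rw [← h2]
      show ν ⟨g * x⁻¹ * q * (g * x⁻¹)⁻¹, hq'⟩ = ν ⟨g * (x⁻¹ * q * x⁻¹⁻¹) * g⁻¹, _⟩
      congr 1
      apply Subtype.ext
      show g * x⁻¹ * q * (g * x⁻¹)⁻¹ = g * (x⁻¹ * q * x⁻¹⁻¹) * g⁻¹
      group
    · have : (g * x⁻¹)⁻¹ * g = x := by group
      rw [this]; exact hx
  have hpT : ¬ p ∣ Q.relIndex T := by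
    have h1 : P.relIndex (Subgroup.normalizer (Q : Set H)) = P.relIndex T :=
      Cfsg.Agent.H1.Basic.relIndex_eq_of_factor hTN hNTP
    have h2 : P.relIndex (Subgroup.normalizer (Q : Set H)) ∣ P.index := Subgroup.relIndex_dvd_index_of_le hPN
    have h3 : P.relIndex T = Q.relIndex T := by
      rw [← Subgroup.inf_relIndex_left, show T ⊓ P = Q from le_antisymm hTP (le_inf hQT hQP)]
    rw [← h3, ← h1]
    exact fun h => hPidx (h.trans h2)
  -- Frattini
  have hfrat : Subgroup.normalizer (Q : Set H) ⊔ K = ⊤ := by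
    have h1 : (P₀ : Subgroup H).relIndex (K ⊔ P₀) = (P₀ : Subgroup H).relIndex K := by
      apply Cfsg.Agent.H1.Basic.relIndex_eq_of_factor le_sup_left
      intro l hl
      rw [← SetLike.mem_coe, Subgroup.coe_mul_of_right_le_normalizer_left K _ Subgroup.le_normalizer_of_normal] at hl
      obtain ⟨y, hy, s, hs, rfl⟩ := Set.mem_mul.1 hl
      exact ⟨y, hy, by rw [inv_mul_cancel_left]; exact hs⟩
    have h2 : ¬ p ∣ ((P₀ : Subgroup H).subgroupOf K).index := by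
      intro h
      have h3 : p ∣ (P₀ : Subgroup H).relIndex (K ⊔ P₀) := by rw [h1]; exact h
      exact P₀.not_dvd_index (h3.trans (Subgroup.relIndex_dvd_index_of_le le_sup_right))
    have h3 : IsPGroup p ((P₀ : Subgroup H).subgroupOf K) := P₀.isPGroup'.comap_of_injective K.subtype Subtype.val_injective
    have h4 := Sylow.normalizer_sup_eq_top (h3.toSylow h2)
    have h5 : ((h3.toSylow h2 : Sylow p K) : Subgroup K).map K.subtype = (P₀ : Subgroup H) ⊓ K := by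
      rw [IsPGroup.toSylow_coe, Subgroup.subgroupOf_map_subtype]
    rw [h5] at h4
    have h6 : Q = ((P₀ : Subgroup H) ⊓ K) ⊔ Z := by
      rw [hQ, hP]
      apply le_antisymm
      · intro x hx
        obtain ⟨hx1, hx2⟩ := Subgroup.mem_inf.1 hx
        rw [← SetLike.mem_coe, Subgroup.mul_normal] at hx1
        obtain ⟨s, hs, z, hz, rfl⟩ := Set.mem_mul.1 hx1
        refine mul_mem (Subgroup.mem_sup_left ⟨hs, ?_⟩) (Subgroup.mem_sup_right hz)
        have := mul_mem hx2 (inv_mem (hZK hz))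
        rwa [mul_inv_cancel_right] at this
      · exact sup_le (inf_le_inf_right K le_sup_left) (le_inf le_sup_right hZK)
    rw [eq_top_iff, ← h4]
    apply sup_le_sup_right
    intro g hg
    have hone : ∀ y ∈ Subgroup.normalizer (((P₀ : Subgroup H) ⊓ K : Subgroup H) : Set H), ∀ x ∈ Q, y * x * y⁻¹ ∈ Q := by
      intro y hy x hx
      rw [h6, ← SetLike.mem_coe, Subgroup.mul_normal] at hx
      obtain ⟨s, hs, z, hz, rfl⟩ := Set.mem_mul.1 hx
      have e1 : y * (s * z) * y⁻¹ = (y * s * y⁻¹) * (y * z * y⁻¹) := by group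
      rw [e1, h6]
      exact mul_mem (Subgroup.mem_sup_left ((Subgroup.mem_normalizer_iff.1 hy s).1 hs)) (Subgroup.mem_sup_right (hZ.conj_mem z hz y))
    rw [Subgroup.mem_normalizer_iff]
    intro x
    refine ⟨hone g hg x, fun h => ?_⟩
    have h7 := hone g⁻¹ (inv_mem hg) _ h
    have e1 : g⁻¹ * (g * x * g⁻¹) * g⁻¹⁻¹ = x := by group
    rwa [e1] at h7
  obtain ⟨U, hU⟩ : ∃ U : Subgroup H, U = T ⊔ K := ⟨_, rfl⟩
  have hKU : K ≤ U := by rw [hU]; exact le_sup_right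
  have hTU : T ≤ U := by rw [hU]; exact le_sup_left
  have hpU : ¬ p ∣ K.relIndex U := by
    rw [hU, Cfsg.Agent.H1.Basic.relIndex_sup_of_le_normalizer Subgroup.le_normalizer_of_normal]
    exact fun h => hpT (h.trans (Subgroup.relIndex_dvd_of_le_left T hQK))
  have hUP : U.index = U.relIndex P := by
    apply Cfsg.Agent.H1.Basic.index_eq_relIndex_of_factor
    intro g
    have hg : g⁻¹ ∈ Subgroup.normalizer (Q : Set H) ⊔ K := by rw [hfrat]; exact Subgroup.mem_top _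
    rw [← SetLike.mem_coe, sup_comm, Subgroup.coe_mul_of_right_le_normalizer_left K _ Subgroup.le_normalizer_of_normal] at hg
    obtain ⟨y, hy, n, hn, hyn⟩ := Set.mem_mul.1 hg
    obtain ⟨t, ht, htn⟩ := hNTP n hn
    refine ⟨(t⁻¹ * n)⁻¹, inv_mem htn, (y * t)⁻¹, inv_mem (mul_mem (hKU hy) (hTU ht)), ?_⟩
    rw [← mul_inv_rev, mul_assoc, mul_inv_cancel_left, hyn, inv_inv]
  obtain ⟨i, hi⟩ : ∃ i, U.index = p ^ i := by
    have h1 : U.index ∣ p ^ k' := by
      rw [hUP, ← hk']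
      exact Subgroup.relIndex_dvd_of_le_left P (hQT.trans hTU)
    obtain ⟨i, -, h2⟩ := (Nat.dvd_prime_pow hp).1 h1
    exact ⟨i, h2⟩
  exact ⟨U, hKU, ⟨i, hi⟩, hpU⟩

theorem exists_const {G : Type*} [Group G] [Fintype G] {f : G → ℂ} (hf : IsCharacter G f) (h1 : f 1 ≠ 0) :
    ∃ η : G → ℂ, IsIrrCharacter G η ∧ classInner f η ≠ 0 := by
  classical
  haveI : Fintype (IrrCharacter G) := Fintype.ofFinite _
  by_contra h
  push Not at h
  apply h1
  rw [expand_apply f (IsChar.isClass hf) 1]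
  exact Finset.sum_eq_zero fun χ _ => by rw [h χ χ.2, zero_mul]

theorem compl_cyclic (hχ : IsIrrCharacter H χ) (hθ : IsIrrCharacter Z θ) (he : e ^ 2 = Z.index)
    (hr : ∀ z : Z, χ z = (e : ℂ) * θ z) {K : Subgroup H} [hK : K.Normal] (hZK : Z ≤ K)
    {p : ℕ} (hp : p.Prime) (P₀ : Sylow p H)
    (hcyc : IsCyclic ((P₀ : Subgroup H).map (QuotientGroup.mk' K))) :
    ∃ U : Subgroup H, K ≤ U ∧ (∃ i, U.index = p ^ i) ∧ ¬ p ∣ K.relIndex U := by
  classical
  apply compl_of hχ hθ he hr hZK hp P₀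
  intro P Q hP hQ _ _ _ hQP hQPn hZP hZPn ψ a b hψ hpa hb hψZ hχP ν hν hν0 d hd hds hψ1
  haveI : Fintype (Z.subgroupOf P) := Fintype.ofFinite _
  obtain ⟨I, hI⟩ : ∃ I : Subgroup P, I = inertia hQPn (up hQP ν) := ⟨_, rfl⟩
  haveI : Fintype I := Fintype.ofFinite _
  have hZQ : Z ≤ Q := by rw [hQ]; exact le_inf hZP hZK
  have hupν : IsIrrCharacter (Q.subgroupOf P) (up hQP ν) := (isIrr_comp_iff (Subgroup.subgroupOfEquivOfLe hQP)).2 hν
  have hQI : Q.subgroupOf P ≤ I := by rw [hI]; exact le_inertia hQPn (IsIrr.isClass hupν)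
  have hZQP : Z.subgroupOf P ≤ Q.subgroupOf P := fun x hx => Subgroup.mem_subgroupOf.2 (hZQ (Subgroup.mem_subgroupOf.1 hx))
  haveI hNn : ((Q.subgroupOf P).subgroupOf I).Normal := Subgroup.normal_subgroupOf
  -- cyclic quotient
  have hcI : IsCyclic (I ⧸ (Q.subgroupOf P).subgroupOf I) := by
    let f : I →* H ⧸ K := (QuotientGroup.mk' K).comp (P.subtype.comp I.subtype)
    have hker : (Q.subgroupOf P).subgroupOf I = f.ker := by
      ext x
      rw [Subgroup.mem_subgroupOf, Subgroup.mem_subgroupOf, MonoidHom.mem_ker, hQ]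
      constructor
      · intro h
        exact (QuotientGroup.eq_one_iff ((x : P) : H)).2 h.2
      · intro h
        exact ⟨(x : P).2, (QuotientGroup.eq_one_iff ((x : P) : H)).1 h⟩
    have hrange : f.range ≤ (P₀ : Subgroup H).map (QuotientGroup.mk' K) := by
      rintro _ ⟨x, rfl⟩
      have hx : ((x : P) : H) ∈ (P₀ : Subgroup H) ⊔ Z := by rw [← hP]; exact (x : P).2
      rw [← SetLike.mem_coe, Subgroup.mul_normal] at hx
      obtain ⟨s, hs, z, hz, hsz⟩ := Set.mem_mul.1 hx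
      refine ⟨s, hs, ?_⟩
      show QuotientGroup.mk' K s = QuotientGroup.mk' K ((x : P) : H)
      rw [← hsz, map_mul, show QuotientGroup.mk' K z = 1 from (QuotientGroup.eq_one_iff z).2 (hZK hz), mul_one]
    haveI hc1 : IsCyclic f.range := by
      haveI := hcyc
      exact isCyclic_of_injective (Subgroup.inclusion hrange) (Subgroup.inclusion_injective hrange)
    let eq : I ⧸ (Q.subgroupOf P).subgroupOf I ≃* f.range :=
      (QuotientGroup.quotientMulEquivOfEq hker).trans (QuotientGroup.quotientKerEquivRange f)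
    exact isCyclic_of_injective eq.toMonoidHom eq.injective
  obtain ⟨μ, hμ, hμN⟩ := Cfsg.Agent.H3.CycExt.exists_extension ((Q.subgroupOf P).subgroupOf I) hcI
    (fun x => up hQP ν ⟨(x : I), Subgroup.mem_subgroupOf.1 x.2⟩)
    ((isIrr_comp_iff (Subgroup.subgroupOfEquivOfLe hQI)).2 hupν) (by
      intro g n
      have h1 : (g : P) ∈ inertia hQPn (up hQP ν) := by rw [← hI]; exact g.2
      exact congrFun ((mem_inertia hQPn _ _).1 h1) ⟨((n : I) : P), Subgroup.mem_subgroupOf.1 n.2⟩)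
  have hμQ : ∀ q : Q.subgroupOf P, μ ⟨q, hQI q.2⟩ = up hQP ν q := fun q =>
    hμN ⟨⟨q, hQI q.2⟩, Subgroup.mem_subgroupOf.2 q.2⟩
  have hθ' : IsIrrCharacter (Z.subgroupOf P) (up hZP θ) := (isIrr_comp_iff (Subgroup.subgroupOfEquivOfLe hZP)).2 hθ
  have hψN : ∀ n : Z.subgroupOf P, ψ n = (b : ℂ) * up hZP θ n := fun n => hψZ ⟨((n : P) : H), Subgroup.mem_subgroupOf.1 n.2⟩
  have hd0 : classInner (fun q : Q.subgroupOf P => ψ q) (up hQP ν) ≠ 0 := by
    rw [hd]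
    intro h
    have hd0 : d = 0 := by exact_mod_cast h
    rw [hd0] at hψ1
    apply irr_one_ne hψ
    rw [hψ1]; simp
  -- ν lies over θ
  have hνθ : classInner (fun z : Z.subgroupOf P => up hQP ν ⟨z, hZQP z.2⟩) (up hZP θ) ≠ 0 := by
    have h1 : IsCharacter (Z.subgroupOf P) (fun z : Z.subgroupOf P => up hQP ν ⟨z, hZQP z.2⟩) := by
      obtain ⟨n, ρ, hρ⟩ := IsIrr.isCharacter hupν
      refine ⟨n, ρ.comp (Subgroup.inclusion hZQP), ?_⟩
      funext z
      exact congrFun hρ (Subgroup.inclusion hZQP z)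
    obtain ⟨η, hη, hη0⟩ := exists_const h1 (irr_one_ne hupν)
    have h2 := trans_const hZQP hupν hη hη0 (IsIrr.isCharacter hψ) hd0
    have h3 : (fun n : Z.subgroupOf P => ψ n) = (b : ℂ) • up hZP θ := funext hψN
    have h4 : up hZP θ = η := by
      by_contra hne
      apply h2
      rw [h3, ci_smul_left, ci_irr_ne hθ' hη hne, mul_zero]
    rw [h4]; exact hη0
  -- characters over θ
  have honly : ∀ ξ : P → ℂ, IsIrrCharacter P ξ → classInner (fun x : I => ξ x) μ ≠ 0 → ξ = ψ := by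
    intro ξ hξ h1
    have h2 : classInner (fun q : Q.subgroupOf P => μ ⟨q, hQI q.2⟩) (up hQP ν) ≠ 0 := by
      rw [show (fun q : Q.subgroupOf P => μ ⟨q, hQI q.2⟩) = up hQP ν from funext hμQ, ci_irr_self hupν]
      exact one_ne_zero
    have h3 := trans_const hQI hμ hupν h2 (IsIrr.isCharacter hξ) h1
    have h4 := trans_const hZQP hupν hθ' hνθ (IsIrr.isCharacter hξ) h3
    exact only hψ hθ' (by exact hb) hψN hξ h4
  obtain ⟨m, hm⟩ := ci_char_nat (IsChar.ind (IsIrr.isCharacter hμ)) (IsIrr.isCharacter hψ)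
  have hind : indFun I μ = (m : ℂ) • ψ := by
    apply ext_inner (ind_isClass I μ) (isClass_smul _ _ (IsIrr.isClass hψ))
    intro ξ hξ
    rw [ci_smul_left]
    by_cases hξψ : ξ = ψ
    · rw [hξψ, hm, ci_irr_self hψ, mul_one]
    · rw [ci_irr_ne hψ hξ (fun h => hξψ h.symm), mul_zero, frobenius I μ ξ (IsIrr.isClass hξ), ← ci_conj_symm]
      by_contra h4
      exact hξψ (honly ξ hξ (fun h => h4 (by rw [h, map_zero])))
  have h1 := congrFun hind 1
  rw [ind_one, Pi.smul_apply, smul_eq_mul, hψ1, ← hI] at h1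
  have h2 : μ 1 = up hQP ν 1 := hμQ 1
  rw [h2] at h1
  have h3 : (I.index : ℂ) ≠ 0 := Nat.cast_ne_zero.2 Subgroup.index_ne_zero_of_finite
  have h4 : (up hQP ν 1) ≠ 0 := irr_one_ne hupν
  have h5 : (m : ℂ) * d = 1 := by
    have h6 : (I.index : ℂ) * up hQP ν 1 * ((m : ℂ) * d) = (I.index : ℂ) * up hQP ν 1 * 1 := by
      rw [mul_one]
      conv_rhs => rw [h1]
      ring
    exact mul_left_cancel₀ (mul_ne_zero h3 h4) h6
  have h6 : m * d = 1 := by exact_mod_cast h5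
  exact Nat.eq_one_of_mul_eq_one_left h6

end Cfsg.Agent.H10.FullRam
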