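import Mathlib
import Cfsg.Agent.H10_BasicAlg2
import Cfsg.Agent.H10_BlockFMT
import Cfsg.Agent.H25_AbSec2
import Cfsg.Agent.H25_Two2
import Cfsg.Agent.H26_Defect2

/-!
H10_KTwo: blocks with two irreducible characters.
-/

set_option autoImplicit false
set_option linter.style.haveILetI false
set_option linter.unusedSectionVars false

namespace Cfsg.Agent.H10.KTwo

open Cfsg Cfsg.Agent.H10.BlockLoc Cfsg.Agent.H10.BlockIdem Cfsg.Agent.H10.BlockMain Cfsg.Agent.H10.BlockHZ
  Cfsg.Agent.H10.BlockGreen Cfsg.Agent.H10.BlockFMT Cfsg.Agent.H25.AbSec2 Cfsg.Agent.H10.BasicAlg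
  Cfsg.Agent.H10.BlockDefect

variable {M : Ideal AlgInt} {G : Type*} [Group G] [Fintype G] {p : ℕ} [hp : Fact p.Prime]

/-- blocks of defect zero -/
theorem card_one_of_bot (hM : IsPModular p M) {B : Set (IrrCharacter G)} (hB : IsPBlock M B)
    (hD : IsDefectGroup p M B ⊥) : Nat.card B = 1 := by
  haveI := hM.2.1
  obtain ⟨χ, hχ, h0⟩ := exists_height_zero (p := p) hB
  have h1 := card_defect_eq hM hB hD hχ h0
  rw [Subgroup.card_bot, Nat.factorization_one, Finsupp.zero_apply, zero_add] at h1
  have h2 : B = {χ} := by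
    ext ψ
    rw [Set.mem_singleton_iff]
    constructor
    · intro hψ
      exact Cfsg.Agent.H26.Defect2.eq_of_sameBlock_of_defect_zero hM h1.ge (block_sameBlock hB hχ hψ)
    · rintro rfl; exact hχ
  rw [h2]
  simp

/-- a nontrivial element of the defect group gives a section -/
theorem secs_nonempty (hM : IsPModular p M) {B : Set (IrrCharacter G)} (hB : IsPBlock M B)
    {D : Subgroup G} (hD : IsDefectGroup p M B D) (hD1 : D ≠ ⊥) : (secs p M B).Nonempty := by
  classical
  haveI := hM.2.1
  have hDp := IsDefectGroup.isPGroup' hD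
  obtain ⟨⟨y, hy⟩, hy1⟩ := Subgroup.ne_bot_iff_exists_ne_one.1 hD1
  have hy1' : y ≠ 1 := fun h => hy1 (Subtype.ext h)
  have hyp : ∃ k : ℕ, orderOf y = p ^ k := by
    obtain ⟨k, hk⟩ := (IsPGroup.iff_orderOf.1 hDp) ⟨y, hy⟩
    exact ⟨k, by rw [← hk]; exact (Subgroup.orderOf_mk y hy).symm⟩
  obtain ⟨x, ⟨hx1, hx2⟩, -⟩ := reps_unique (p := p) y hyp
  have hxo := orderOf_conj' hx2
  obtain ⟨c, hc⟩ := isConj_iff.1 hx2.symm
  have hzc : Subgroup.centralizer (Subgroup.zpowers x : Set G) = Subgroup.centralizer ({x} : Set G) := by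
    ext g
    rw [Subgroup.mem_centralizer_iff, Subgroup.mem_centralizer_singleton_iff]
    constructor
    · intro h; exact (h x (Subgroup.mem_zpowers x)).symm
    · intro h z hz
      obtain ⟨n, rfl⟩ := Subgroup.mem_zpowers_iff.1 hz
      have h1 : Commute g x := h
      exact (h1.symm.zpow_left n).eq
  haveI : Fintype (Subgroup.centralizer ({x} : Set G)) := Fintype.ofFinite _
  obtain ⟨b, -, hb⟩ := exists_inducing_of_le_defect (Subgroup.zpowers x) (Subgroup.centralizer ({x} : Set G)) hM
    (by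
      obtain ⟨k, hk⟩ := hyp
      exact IsPGroup.of_card (n := k) (by rw [Nat.card_zpowers, ← hxo, hk]))
    (by
      rw [Subgroup.zpowers_le, Subgroup.mem_centralizer_singleton_iff])
    hzc.le (by
      rw [← hzc]
      exact Subgroup.centralizer_le_normalizer _) hB hD (x := c) (by
      rintro _ ⟨z, hz, rfl⟩
      obtain ⟨n, rfl⟩ := Subgroup.mem_zpowers_iff.1 hz
      show c * x ^ n * c⁻¹ ∈ D
      rw [← conj_zpow, hc]
      exact D.zpow_mem hy n)
  refine ⟨⟨x, b⟩, mem_secs.2 ⟨hx1, ?_, hb⟩⟩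
  intro h
  have h' : x = 1 := h
  apply hy1'
  rw [← orderOf_eq_one_iff, hxo, h', orderOf_one]

theorem rank_lt (hM : IsPModular p M) {B : Set (IrrCharacter G)} (hB : IsPBlock M B)
    {D : Subgroup G} (hD : IsDefectGroup p M B D) (hD1 : D ≠ ⊥) : blockRank p B < Nat.card B := by
  obtain ⟨s, hs⟩ := secs_nonempty hM hB hD hD1
  have h1 := Cfsg.Agent.H25.AbSec2.card_eq hM hB
  haveI : Fintype (Subgroup.centralizer ({s.1} : Set G)) := Fintype.ofFinite _
  have h2 : 0 < blockRank p s.2 := Cfsg.Agent.H25.AbSec2.rank_pos hM (mem_secs.1 hs).2.2.1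
  have h3 := Finset.single_le_sum (f := fun s : Σ x : G, Set (IrrCharacter (Subgroup.centralizer ({x} : Set G))) => blockRank p s.2)
    (fun _ _ => Nat.zero_le _) hs
  omega

theorem main (hM : IsPModular p M) {B : Set (IrrCharacter G)} (hB : IsPBlock M B)
    {D : Subgroup G} (hD : IsDefectGroup p M B D) : Nat.card B = 2 ↔ Nat.card D = 2 := by
  haveI := hM.2.1
  constructor
  · intro h
    have hD1 : D ≠ ⊥ := by
      rintro rfl
      rw [card_one_of_bot hM hB hD] at h
      omega
    have h1 := rank_lt hM hB hD hD1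
    have h2 := Cfsg.Agent.H25.AbSec2.rank_pos hM hB
    rw [H10.BasicAlg.card_eq hM hB hD (by omega) (by omega), h]
  · intro h
    have hp2 : p = 2 := by
      have h1 := card_defectGroup hM hB hD
      rw [h] at h1
      have h2 : blockDefect p B ≠ 0 := by
        intro h3
        rw [h3, pow_zero] at h1; omega
      have h3 : p ∣ 2 := h1 ▸ dvd_pow_self p h2
      exact (Nat.prime_dvd_prime_iff_eq hp.out Nat.prime_two).1 h3
    subst hp2
    obtain ⟨x, hx, hxD⟩ := Cfsg.Agent.H25.AbSec.exists_gen h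
    subst hxD
    have hzc : Subgroup.centralizer (Subgroup.zpowers x : Set G) = Subgroup.centralizer ({x} : Set G) := by
      ext g
      rw [Subgroup.mem_centralizer_iff, Subgroup.mem_centralizer_singleton_iff]
      constructor
      · intro h; exact (h x (Subgroup.mem_zpowers x)).symm
      · intro h z hz
        obtain ⟨n, rfl⟩ := Subgroup.mem_zpowers_iff.1 hz
        have h1 : Commute g x := h
        exact (h1.symm.zpow_left n).eq
    haveI : Fintype (Subgroup.centralizer ({x} : Set G)) := Fintype.ofFinite _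
    obtain ⟨b, hb1, hb⟩ := exists_inducing_of_le_defect (Subgroup.zpowers x) (Subgroup.centralizer ({x} : Set G)) hM
      (IsDefectGroup.isPGroup' hD)
      (by rw [Subgroup.zpowers_le, Subgroup.mem_centralizer_singleton_iff])
      hzc.le (by
        rw [← hzc]
        exact Subgroup.centralizer_le_normalizer _) hB hD (x := 1) (by
        rintro _ ⟨z, hz, rfl⟩
        simpa using hz)
    obtain ⟨θ, hθ⟩ := block_nonempty hb1
    exact (Cfsg.Agent.H25.Two2.main hM hx hD hb hθ).1

end Cfsg.Agent.H10.KTwo
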