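import Mathlib
import Cfsg.Prelude.Def_Characters
import Cfsg.Prelude.Def_Blocks
import Cfsg.Agent.H3_Feit7
import Cfsg.Agent.H22_ClassTwo
import Cfsg.Agent.H1_Deg

set_option autoImplicit false

/-! Orbits of the automorphism group (H10). -/

namespace Cfsg.Agent.H10.Orb

open Cfsg Cfsg.Agent Cfsg.Agent.H3.CharBasic Cfsg.Agent.H3.CharIrr Cfsg.Agent.H3.CharInd Cfsg.Agent.H3.CharComplete

/-- the number of orbits as a sum of reciprocals of orbit lengths -/
theorem card_orbits {A X : Type*} [Group A] [MulAction A X] [Fintype X] :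
    (Nat.card (MulAction.orbitRel.Quotient A X) : ℚ) = ∑ x : X, (1 : ℚ) / Nat.card (MulAction.orbit A x) := by
  classical
  haveI : Fintype (MulAction.orbitRel.Quotient A X) := Fintype.ofFinite _
  let mk : X → MulAction.orbitRel.Quotient A X := fun x => Quotient.mk'' x
  rw [← Finset.sum_fiberwise Finset.univ mk, Nat.card_eq_fintype_card, ← Finset.card_univ, Finset.card_eq_sum_ones]
  push_cast
  refine Finset.sum_congr rfl fun q _ => ?_
  obtain ⟨x₀, rfl⟩ := Quotient.exists_rep q
  have hmem : ∀ x, mk x = mk x₀ ↔ x ∈ MulAction.orbit A x₀ := by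
    intro x
    rw [← MulAction.orbitRel_apply]
    exact Quotient.eq''
  have h1 : ∀ x ∈ Finset.univ.filter (fun i => mk i = mk x₀), (1 : ℚ) / Nat.card (MulAction.orbit A x) = 1 / Nat.card (MulAction.orbit A x₀) := by
    intro x hx
    rw [MulAction.orbit_eq_iff.2 ((hmem x).1 (Finset.mem_filter.1 hx).2)]
  have h0 : (Nat.card (MulAction.orbit A x₀) : ℚ) ≠ 0 := by
    haveI : Nonempty (MulAction.orbit A x₀) := ⟨⟨x₀, MulAction.mem_orbit_self x₀⟩⟩
    exact_mod_cast Nat.card_pos.ne'
  show (1 : ℚ) = ∑ i ∈ Finset.univ.filter (fun i => mk i = mk x₀), (1 : ℚ) / Nat.card (MulAction.orbit A i)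
  rw [Finset.sum_congr rfl h1, Finset.sum_const, nsmul_eq_mul]
  have h2 : (Finset.univ.filter (fun i => mk i = mk x₀)).card = Nat.card (MulAction.orbit A x₀) := by
    rw [Nat.card_eq_fintype_card, ← Set.toFinset_card]
    congr 1
    ext x
    rw [Set.mem_toFinset, Finset.mem_filter, ← hmem]
    simp
  rw [h2]
  field_simp

/-- the class number bound through degrees -/
theorem class_bound {G : Type*} [Group G] [Finite G] {p : ℕ} (hp : p = (Nat.card G).minFac) :
    p ^ 2 * Nat.card (ConjClasses G) + (commutator G).index ≤ Nat.card G + p ^ 2 * (commutator G).index := by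
  classical
  haveI := Fintype.ofFinite G
  haveI : Fintype (IrrCharacter G) := Fintype.ofFinite _
  rw [← card_irr, Nat.card_eq_fintype_card (α := IrrCharacter G), ← Finset.card_univ]
  have h1 := sum_sq (G := G)
  have h2 := Cfsg.Agent.H3.Feit.sum_sq_ker (commutator G) inferInstance
  set S := Finset.univ.filter (fun χ : IrrCharacter G => ∀ n ∈ commutator G, (χ : G → ℂ) n = (χ : G → ℂ) 1) with hS
  set S' := Finset.univ.filter (fun χ : IrrCharacter G => ¬ ∀ n ∈ commutator G, (χ : G → ℂ) n = (χ : G → ℂ) 1) with hS'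
  have hcast : ∀ χ : IrrCharacter G, (χ : G → ℂ) 1 ^ 2 = ((charDegree (χ : G → ℂ) ^ 2 : ℕ) : ℂ) := by
    intro χ
    rw [← Cfsg.Agent.H1.Deg.coe_deg (IsIrr.isCharacter χ.2)]
    push_cast; ring
  rw [Finset.sum_congr rfl (fun χ _ => hcast χ), ← Nat.cast_sum] at h1 h2
  have h1' : ∑ χ : IrrCharacter G, charDegree (χ : G → ℂ) ^ 2 = Nat.card G := by exact_mod_cast h1
  have h2' : ∑ χ ∈ S, charDegree (χ : G → ℂ) ^ 2 = (commutator G).index := by exact_mod_cast h2
  have h1'' : ∑ χ ∈ S, charDegree (χ : G → ℂ) ^ 2 + ∑ χ ∈ S', charDegree (χ : G → ℂ) ^ 2 = Nat.card G := by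
    rw [← h1']
    exact Finset.sum_filter_add_sum_filter_not _ _ _
  have h3 : S.card ≤ (commutator G).index := by
    rw [← h2', Finset.card_eq_sum_ones]
    refine Finset.sum_le_sum fun χ _ => ?_
    exact Nat.one_le_pow _ _ (Cfsg.Agent.H1.Deg.deg_pos χ.2)
  have h4 : p ^ 2 * S'.card ≤ ∑ χ ∈ S', charDegree (χ : G → ℂ) ^ 2 := by
    rw [mul_comm, ← smul_eq_mul, ← Finset.sum_const]
    refine Finset.sum_le_sum fun χ hχ => ?_
    refine Nat.pow_le_pow_left ?_ 2
    rw [hp]
    refine Nat.minFac_le_of_dvd ?_ (Cfsg.Agent.H1.Deg.deg_dvd_card χ.2)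
    have h5 := Cfsg.Agent.H1.Deg.deg_pos χ.2
    rcases Nat.lt_or_ge (charDegree (χ : G → ℂ)) 2 with h6 | h6
    · exfalso
      have h7 : charDegree (χ : G → ℂ) = 1 := by omega
      apply (Finset.mem_filter.1 hχ).2
      have h8 : (χ : G → ℂ) 1 = 1 := by
        rw [← Cfsg.Agent.H1.Deg.coe_deg (IsIrr.isCharacter χ.2), h7, Nat.cast_one]
      obtain ⟨f, hf⟩ := IsChar.hom_units_of_one (IsIrr.isCharacter χ.2) h8
      intro n hn
      have h9 : f n = 1 := MonoidHom.mem_ker.1 (Abelianization.commutator_subset_ker f hn)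
      rw [hf, hf, h9, map_one]
    · exact h6
  have h5 : (Finset.univ : Finset (IrrCharacter G)).card = S.card + S'.card :=
    (Finset.card_filter_add_card_filter_not _).symm
  have h6 : (commutator G).index + p ^ 2 * S'.card ≤ Nat.card G := by omega
  have h7 : p ^ 2 * S.card ≤ p ^ 2 * (commutator G).index := Nat.mul_le_mul_left _ h3
  rw [h5, mul_add]
  omega

theorem orbits_le_classes (G : Type*) [Group G] [Finite G] :
    Nat.card (MulAction.orbitRel.Quotient (MulAut G) G) ≤ Nat.card (ConjClasses G) := by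
  haveI : Finite (ConjClasses G) := Quotient.finite _
  let f : ConjClasses G → MulAction.orbitRel.Quotient (MulAut G) G := fun q =>
    Quotient.liftOn q (fun g => (Quotient.mk'' g : MulAction.orbitRel.Quotient (MulAut G) G)) (by
      intro a b hab
      obtain ⟨c, hc⟩ := isConj_iff.1 hab
      apply Quotient.sound'
      rw [MulAction.orbitRel_apply]
      refine ⟨(MulAut.conj c)⁻¹, ?_⟩
      show (MulAut.conj c)⁻¹ b = a
      rw [← hc, MulAut.conj_inv_apply]
      group)
  refine Nat.card_le_card_of_surjective f ?_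
  intro q
  obtain ⟨g, rfl⟩ := Quotient.exists_rep q
  exact ⟨ConjClasses.mk g, rfl⟩

/-- a conjugacy class of a noncentral element has at least `p` elements -/
theorem le_class {G : Type*} [Group G] [Finite G] {x : G} (hx : x ∉ Subgroup.center G) :
    (Nat.card G).minFac ≤ (Subgroup.centralizer {x}).index := by
  apply Nat.minFac_le_of_dvd _ (Subgroup.index_dvd_card _)
  have h0 : (Subgroup.centralizer {x}).index ≠ 0 := Subgroup.index_ne_zero_of_finite
  have h1 : (Subgroup.centralizer {x}).index ≠ 1 := by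
    intro h
    rw [Subgroup.index_eq_one] at h
    apply hx
    rw [Subgroup.mem_center_iff]
    intro g
    have : g ∈ Subgroup.centralizer {x} := by rw [h]; exact Subgroup.mem_top _
    exact (Subgroup.mem_centralizer_iff.1 this x rfl).symm
  omega

theorem mkAut {G : Type*} [Group G] [Finite G] {p : ℕ} [Fact p.Prime] (e : G → ZMod p) (he : ∀ g h, e (g * h) = e g + e h)
    (s : ZMod p → G) (hs : ∀ a h, h⁻¹ * s a * h * s (e h) = s (a + e h)) (hse : ∀ a, e (s a) = 0) (hs0 : s 0 = 1) :
    ∃ φ : MulAut G, ∀ g, φ g = g * s (e g) := by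
  let φ : G →* G :=
    { toFun := fun g => g * s (e g)
      map_one' := by
        have h1 : e 1 = 0 := by
          have := he 1 1
          rw [one_mul] at this
          exact left_eq_add.1 this
        show 1 * s (e 1) = 1
        rw [h1, hs0, one_mul]
      map_mul' := by
        intro g h
        show g * h * s (e (g * h)) = g * s (e g) * (h * s (e h))
        rw [he, ← hs (e g) h]
        group }
  have hφ : ∀ g, φ g = g * s (e g) := fun _ => rfl
  have hinj : Function.Injective φ := by
    rw [injective_iff_map_eq_one]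
    intro g hg
    rw [hφ] at hg
    have h1 := congrArg e hg
    have h2 : e 1 = 0 := by
      have := he 1 1
      rw [one_mul] at this
      exact left_eq_add.1 this
    rw [he, hse, h2, add_zero] at h1
    rwa [h1, hs0, mul_one] at hg
  exact ⟨MulEquiv.ofBijective φ (Finite.injective_iff_bijective.1 hinj), hφ⟩

end Cfsg.Agent.H10.Orb
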