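import Mathlib
import Cfsg.Agent.H10_Orb

set_option autoImplicit false

/-! Orbits of the automorphism group, II (H10). -/

namespace Cfsg.Agent.H10.Orb

open Cfsg Cfsg.Agent
open scoped commutatorElement

theorem index_le_of_conj {G : Type*} [Group G] [Finite G] (x : G) (S : Set G) (hS : ∀ g, g * x * g⁻¹ ∈ S) :
    (Subgroup.centralizer {x}).index ≤ Nat.card S := by
  let f : G ⧸ Subgroup.centralizer {x} → S := fun q => Quotient.liftOn' q (fun g => (⟨g * x * g⁻¹, hS g⟩ : S)) (by
    intro a b hab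
    rw [QuotientGroup.leftRel_apply, Subgroup.mem_centralizer_iff] at hab
    have h1 := hab x rfl
    apply Subtype.ext
    show a * x * a⁻¹ = b * x * b⁻¹
    calc a * x * a⁻¹ = a * (x * (a⁻¹ * b)) * b⁻¹ := by group
      _ = a * ((a⁻¹ * b) * x) * b⁻¹ := by rw [h1]
      _ = _ := by group)
  refine Nat.card_le_card_of_injective f ?_
  intro q r
  induction q using Quotient.inductionOn'
  induction r using Quotient.inductionOn'
  rename_i a b
  intro h
  have h1 : a * x * a⁻¹ = b * x * b⁻¹ := congrArg Subtype.val h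
  apply Quotient.sound'
  rw [QuotientGroup.leftRel_apply, Subgroup.mem_centralizer_iff]
  intro y hy
  rw [Set.mem_singleton_iff.1 hy]
  calc x * (a⁻¹ * b) = a⁻¹ * (a * x * a⁻¹) * b := by group
    _ = a⁻¹ * (b * x * b⁻¹) * b := by rw [h1]
    _ = _ := by group

theorem comm_central {G : Type*} [Group G] [Finite G] (hD : Nat.card (commutator G) = (Nat.card G).minFac) :
    commutator G ≤ Subgroup.center G := by
  intro x hx
  by_contra hxc
  have h1 := le_class hxc
  have hx1 : x ≠ 1 := fun h => hxc (by rw [h]; exact Subgroup.one_mem _)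
  have h2 : (Subgroup.centralizer {x}).index ≤ Nat.card (((commutator G : Subgroup G) : Set G) \ {1} : Set G) := by
    apply index_le_of_conj
    intro g
    refine ⟨(inferInstance : (commutator G).Normal).conj_mem x hx g, ?_⟩
    intro h
    rw [Set.mem_singleton_iff, mul_inv_eq_one, mul_eq_left] at h
    exact hx1 h
  have h3 : Nat.card (((commutator G : Subgroup G) : Set G) \ {1} : Set G) < Nat.card (commutator G) := by
    have h4 : Nat.card (((commutator G : Subgroup G) : Set G) \ {1} : Set G) = (((commutator G : Subgroup G) : Set G) \ {1}).ncard := rfl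
    have h5 : Nat.card (commutator G) = ((commutator G : Subgroup G) : Set G).ncard := rfl
    rw [h4, h5]
    exact Set.ncard_diff_singleton_lt_of_mem (commutator G).one_mem (Set.toFinite _)
  omega

theorem conj_sub {G : Type*} [Group G] (x g : G) : x⁻¹ * (g * x * g⁻¹) ∈ commutator G := by
  have h1 : x⁻¹ * (g * x * g⁻¹) = ⁅x⁻¹, g⁆ := by rw [commutatorElement_def]; group
  rw [h1]
  exact Subgroup.commutator_mem_commutator (Subgroup.mem_top _) (Subgroup.mem_top _)

theorem cent_index {G : Type*} [Group G] [Finite G] (hD : Nat.card (commutator G) = (Nat.card G).minFac) {t : G}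
    (ht : t ∉ Subgroup.center G) : (Subgroup.centralizer {t}).index = (Nat.card G).minFac := by
  apply le_antisymm _ (le_class ht)
  rw [← hD]
  have h1 := index_le_of_conj t {y | t⁻¹ * y ∈ commutator G} (conj_sub t)
  refine h1.trans ?_
  refine Nat.card_le_card_of_injective (fun y : {y | t⁻¹ * y ∈ commutator G} => (⟨t⁻¹ * y, y.2⟩ : commutator G)) ?_
  intro a b h
  have h2 : t⁻¹ * (a : G) = t⁻¹ * b := congrArg Subtype.val h
  exact Subtype.ext (mul_left_cancel h2)

theorem two_le_orbit {G : Type*} [Group G] [Finite G] {x : G} (hx : x ∉ Subgroup.center G) (φ : MulAut G)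
    (hφ : x⁻¹ * φ x ∉ commutator G) : 2 * (Nat.card G).minFac ≤ Nat.card (MulAction.orbit (MulAut G) x) := by
  have hx' : φ x ∉ Subgroup.center G := by
    intro h
    apply hx
    rw [Subgroup.mem_center_iff] at h ⊢
    intro g
    apply φ.injective
    rw [map_mul, map_mul]
    exact h (φ g)
  set C₁ : Set G := Set.range (fun g => g * x * g⁻¹) with hC₁
  set C₂ : Set G := Set.range (fun g => g * φ x * g⁻¹) with hC₂
  have h1 : (Nat.card G).minFac ≤ C₁.ncard := (le_class hx).trans (index_le_of_conj x C₁ (fun g => ⟨g, rfl⟩))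
  have h2 : (Nat.card G).minFac ≤ C₂.ncard := (le_class hx').trans (index_le_of_conj (φ x) C₂ (fun g => ⟨g, rfl⟩))
  have hdisj : Disjoint C₁ C₂ := by
    rw [Set.disjoint_left]
    rintro y ⟨g, rfl⟩ ⟨h, hh⟩
    apply hφ
    have h3 := conj_sub x g
    have h4 := conj_sub (φ x) h
    have hh' : h * φ x * h⁻¹ = g * x * g⁻¹ := hh
    rw [hh'] at h4
    have h5 := (commutator G).mul_mem h3 ((commutator G).inv_mem h4)
    have h6 : x⁻¹ * (g * x * g⁻¹) * ((φ x)⁻¹ * (g * x * g⁻¹))⁻¹ = x⁻¹ * φ x := by group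
    rwa [h6] at h5
  have h3 : C₁ ∪ C₂ ⊆ MulAction.orbit (MulAut G) x := by
    rintro y (⟨g, rfl⟩ | ⟨g, rfl⟩)
    · exact ⟨MulAut.conj g, rfl⟩
    · exact ⟨MulAut.conj g * φ, rfl⟩
  have h4 := Set.ncard_le_ncard h3 (Set.toFinite _)
  rw [Set.ncard_union_eq hdisj (Set.toFinite _) (Set.toFinite _)] at h4
  have h5 : Nat.card (MulAction.orbit (MulAut G) x) = (MulAction.orbit (MulAut G) x).ncard := rfl
  omega

theorem le_orbit {G : Type*} [Group G] [Finite G] {x : G} (hx : x ∉ Subgroup.center G) :
    (Nat.card G).minFac ≤ Nat.card (MulAction.orbit (MulAut G) x) :=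
  (le_class hx).trans (index_le_of_conj x _ (fun g => ⟨MulAut.conj g, rfl⟩))

theorem final {G : Type*} [Group G] [Finite G] (M : Subgroup G) (hZM : Subgroup.center G ≤ M) (hMi : M.index = (Nat.card G).minFac)
    (hZ : 2 * (Nat.card G).minFac * Nat.card (Subgroup.center G) ≤ Nat.card G) (hp : 2 ≤ (Nat.card G).minFac)
    (hM : ∀ x ∉ M, ∃ φ : MulAut G, x⁻¹ * φ x ∉ commutator G) :
    Nat.card (MulAction.orbitRel.Quotient (MulAut G) G) * (Nat.card G).minFac ≤ Nat.card G := by
  classical
  haveI := Fintype.ofFinite G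
  set p := (Nat.card G).minFac with hpdef
  have hp0 : (0 : ℚ) < p := by exact_mod_cast (by omega : 0 < p)
  have hp1 : (2 : ℚ) ≤ p := by exact_mod_cast hp
  have h1 := card_orbits (A := MulAut G) (X := G)
  let w : G → ℚ := fun x => (if x ∈ Subgroup.center G then (1 - 1 / (p : ℚ)) else 0) + (if x ∈ M then (1 / (p : ℚ) - 1 / (2 * p)) else 0) + 1 / (2 * p)
  have h2 : ∀ x : G, (1 : ℚ) / Nat.card (MulAction.orbit (MulAut G) x) ≤ w x := by
    intro x
    haveI : Nonempty (MulAction.orbit (MulAut G) x) := ⟨⟨x, MulAction.mem_orbit_self x⟩⟩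
    have h0 : 0 < Nat.card (MulAction.orbit (MulAut G) x) := Nat.card_pos
    show _ ≤ (if x ∈ Subgroup.center G then (1 - 1 / (p : ℚ)) else 0) + (if x ∈ M then (1 / (p : ℚ) - 1 / (2 * p)) else 0) + 1 / (2 * p)
    by_cases hx : x ∈ Subgroup.center G
    · rw [if_pos hx, if_pos (hZM hx)]
      have h3 : (1 : ℚ) / Nat.card (MulAction.orbit (MulAut G) x) ≤ 1 := by
        rw [div_le_one (by exact_mod_cast h0)]
        exact_mod_cast h0
      linarith
    · rw [if_neg hx]
      by_cases hxM : x ∈ M
      · rw [if_pos hxM]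
        have h3 : (1 : ℚ) / Nat.card (MulAction.orbit (MulAut G) x) ≤ 1 / p :=
          one_div_le_one_div_of_le hp0 (by exact_mod_cast le_orbit hx)
        linarith
      · rw [if_neg hxM]
        obtain ⟨φ, hφ⟩ := hM x hxM
        have h3 : (1 : ℚ) / Nat.card (MulAction.orbit (MulAut G) x) ≤ 1 / (2 * p) :=
          one_div_le_one_div_of_le (by positivity) (by exact_mod_cast two_le_orbit hx φ hφ)
        linarith
  have h3 : (Nat.card (MulAction.orbitRel.Quotient (MulAut G) G) : ℚ) ≤ ∑ x : G, w x := by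
    rw [h1]; exact Finset.sum_le_sum fun x _ => h2 x
  have hcardZ : (Finset.univ.filter (fun x : G => x ∈ Subgroup.center G)).card = Nat.card (Subgroup.center G) := by
    rw [Nat.card_eq_fintype_card, Fintype.card_subtype]
  have hcardM : (Finset.univ.filter (fun x : G => x ∈ M)).card = Nat.card M := by
    rw [Nat.card_eq_fintype_card, Fintype.card_subtype]
  have h4 : ∑ x : G, w x = Nat.card (Subgroup.center G) * (1 - 1 / (p : ℚ)) + Nat.card M * (1 / (p : ℚ) - 1 / (2 * p)) + Nat.card G * (1 / (2 * p)) := by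
    show ∑ x : G, ((if x ∈ Subgroup.center G then (1 - 1 / (p : ℚ)) else 0) + (if x ∈ M then (1 / (p : ℚ) - 1 / (2 * p)) else 0) + 1 / (2 * p)) = _
    rw [Finset.sum_add_distrib, Finset.sum_add_distrib, ← Finset.sum_filter, ← Finset.sum_filter, Finset.sum_const, Finset.sum_const,
      Finset.sum_const, hcardZ, hcardM, Finset.card_univ, ← Nat.card_eq_fintype_card, nsmul_eq_mul, nsmul_eq_mul, nsmul_eq_mul]
  have hMG : (Nat.card M : ℚ) * p = Nat.card G := by
    have := M.card_mul_index
    rw [hMi] at this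
    exact_mod_cast this
  have hZ' : 2 * (p : ℚ) * Nat.card (Subgroup.center G) ≤ Nat.card G := by exact_mod_cast hZ
  have h5 : (Nat.card (MulAction.orbitRel.Quotient (MulAut G) G) : ℚ) * p ≤ Nat.card G := by
    have h6 : (Nat.card (MulAction.orbitRel.Quotient (MulAut G) G) : ℚ) * p ≤ (∑ x : G, w x) * p := mul_le_mul_of_nonneg_right h3 hp0.le
    refine h6.trans ?_
    rw [h4]
    have h7 : (Nat.card (Subgroup.center G) * (1 - 1 / (p : ℚ)) + Nat.card M * (1 / (p : ℚ) - 1 / (2 * p)) + Nat.card G * (1 / (2 * p))) * p =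
        Nat.card (Subgroup.center G) * (p - 1) + Nat.card M / 2 + Nat.card G / 2 := by
      field_simp
      ring
    rw [h7]
    have h8 : (Nat.card (Subgroup.center G) : ℚ) * (p - 1) * (2 * p) ≤ Nat.card G * (p - 1) := by
      have := mul_le_mul_of_nonneg_right hZ' (by linarith : (0 : ℚ) ≤ p - 1)
      linarith
    have h9 : (Nat.card G : ℚ) * (p - 1) = (Nat.card G / 2 - Nat.card M / 2) * (2 * p) := by
      have : (Nat.card G / 2 - Nat.card M / 2 : ℚ) * (2 * p) = Nat.card G * p - Nat.card M * p := by ring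
      rw [this, hMG]; ring
    rw [h9] at h8
    have h10 := le_of_mul_le_mul_right h8 (by positivity)
    linarith
  exact_mod_cast h5

end Cfsg.Agent.H10.Orb
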