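import Mathlib
import Cfsg.Agent.H10_Orb2

set_option autoImplicit false

/-! Orbits of the automorphism group, III (H10). -/

namespace Cfsg.Agent.H10.Orb

open Cfsg Cfsg.Agent
open scoped commutatorElement

section

variable {G : Type*} [Group G] {p : ℕ} [hp : Fact p.Prime]

theorem pw_add {y : G} (hy : y ^ p = 1) (a b : ZMod p) : y ^ (a + b).val = y ^ a.val * y ^ b.val := by
  rw [ZMod.val_add, ← pow_add, ← pow_eq_pow_mod _ hy]

theorem pw_mul {y : G} (hy : y ^ p = 1) (a b : ZMod p) : y ^ (a * b).val = (y ^ a.val) ^ b.val := by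
  rw [ZMod.val_mul, ← pow_mul, ← pow_eq_pow_mod _ hy]

theorem pw_inj {y : G} (hy : y ^ p = 1) (hy1 : y ≠ 1) {a b : ZMod p} (h : y ^ a.val = y ^ b.val) : a = b := by
  have ho : orderOf y = p := orderOf_eq_prime hy hy1
  rw [pow_eq_pow_iff_modEq, ho, ← ZMod.natCast_eq_natCast_iff, ZMod.natCast_zmod_val, ZMod.natCast_zmod_val] at h
  exact h

theorem pw_one (y : G) : y ^ (1 : ZMod p).val = y := by
  haveI : Fact (1 < p) := ⟨hp.out.one_lt⟩
  rw [ZMod.val_one, pow_one]

theorem exists_e [Finite G] (hD : Nat.card (commutator G) = p) (hDZ : commutator G ≤ Subgroup.center G) {t x : G}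
    (hc1 : t⁻¹ * (x⁻¹ * t * x) ≠ 1) :
    ∃ e : G → ZMod p, (∀ g h, e (g * h) = e g + e h) ∧ (∀ g, g⁻¹ * t * g = t * (t⁻¹ * (x⁻¹ * t * x)) ^ (e g).val) ∧ e x = 1 := by
  set c := t⁻¹ * (x⁻¹ * t * x) with hc
  have hκ : ∀ g : G, t⁻¹ * (g⁻¹ * t * g) ∈ commutator G := by
    intro g
    have := conj_sub t g⁻¹
    rwa [inv_inv] at this
  have hcD : c ∈ commutator G := hκ x
  have hcp : c ^ p = 1 := by
    have h1 : (⟨c, hcD⟩ : commutator G) ^ p = 1 := by rw [← hD]; exact pow_card_eq_one'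
    exact congrArg Subtype.val h1
  have hpow : ∀ g : G, ∃ n : ℕ, c ^ n = t⁻¹ * (g⁻¹ * t * g) := by
    intro g
    have h1 : (⟨c, hcD⟩ : commutator G) ≠ 1 := fun h => hc1 (congrArg Subtype.val h)
    obtain ⟨n, hn⟩ := mem_powers_of_prime_card (p := p) hD h1 (g' := ⟨_, hκ g⟩)
    exact ⟨n, congrArg Subtype.val hn⟩
  choose n hn using hpow
  have hval : ∀ g, c ^ ((n g : ZMod p)).val = t⁻¹ * (g⁻¹ * t * g) := by
    intro g
    rw [ZMod.val_natCast, ← pow_eq_pow_mod _ hcp, hn]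
  refine ⟨fun g => (n g : ZMod p), ?_, ?_, ?_⟩
  · intro g h
    apply pw_inj hcp hc1
    rw [pw_add hcp, hval, hval, hval]
    have h1 := Subgroup.mem_center_iff.1 (hDZ (hκ g))
    calc t⁻¹ * ((g * h)⁻¹ * t * (g * h)) = t⁻¹ * (h⁻¹ * (t * (t⁻¹ * (g⁻¹ * t * g))) * h) := by group
      _ = t⁻¹ * (h⁻¹ * t * ((t⁻¹ * (g⁻¹ * t * g)) * h)) := by group
      _ = t⁻¹ * (h⁻¹ * t * (h * (t⁻¹ * (g⁻¹ * t * g)))) := by rw [h1 h]
      _ = (t⁻¹ * (h⁻¹ * t * h)) * (t⁻¹ * (g⁻¹ * t * g)) := by group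
      _ = _ := h1 _
  · intro g
    rw [hval]; group
  · apply pw_inj hcp hc1
    rw [hval, pw_one]

variable [Finite G]

/-- central `u` of order `p` outside the derived group -/
theorem case1 (hD : Nat.card (commutator G) = p) (hDZ : commutator G ≤ Subgroup.center G) {t x u : G}
    (htx : x ∉ Subgroup.centralizer {t}) (hu : u ∈ Subgroup.center G) (hup : u ^ p = 1) (huD : u ∉ commutator G) :
    ∃ φ : MulAut G, x⁻¹ * φ x ∉ commutator G := by
  have hc1 : t⁻¹ * (x⁻¹ * t * x) ≠ 1 := by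
    intro h
    apply htx
    rw [Subgroup.mem_centralizer_iff]
    intro y hy
    rw [Set.mem_singleton_iff.1 hy]
    calc t * x = x * (t * (t⁻¹ * (x⁻¹ * t * x))) := by group
      _ = x * t := by rw [h, mul_one]
  obtain ⟨e, he, het, hex⟩ := exists_e hD hDZ hc1
  have hcp : (t⁻¹ * (x⁻¹ * t * x)) ^ p = 1 := by
    have hcD : t⁻¹ * (x⁻¹ * t * x) ∈ commutator G := by
      have := conj_sub t x⁻¹
      rwa [inv_inv] at this
    have h1 : (⟨_, hcD⟩ : commutator G) ^ p = 1 := by rw [← hD]; exact pow_card_eq_one'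
    exact congrArg Subtype.val h1
  have he0 : ∀ g, g * t = t * g → e g = 0 := by
    intro g hg
    apply pw_inj hcp hc1
    apply mul_left_cancel (a := t)
    rw [← het, ZMod.val_zero, pow_zero, mul_one, mul_assoc, ← hg, inv_mul_cancel_left]
  have huc := Subgroup.mem_center_iff.1 ((Subgroup.center G).pow_mem hu 1)
  have hupc : ∀ (k : ℕ) (g : G), g * u ^ k = u ^ k * g := fun k => Subgroup.mem_center_iff.1 ((Subgroup.center G).pow_mem hu k)
  obtain ⟨φ, hφ⟩ := mkAut e he (fun a => u ^ a.val) (by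
    intro a h
    show h⁻¹ * u ^ a.val * h * u ^ (e h).val = u ^ (a + e h).val
    rw [pw_add hup]
    have h1 := hupc a.val h
    calc h⁻¹ * u ^ a.val * h * u ^ (e h).val = h⁻¹ * (u ^ a.val * h) * u ^ (e h).val := by group
      _ = h⁻¹ * (h * u ^ a.val) * u ^ (e h).val := by rw [h1]
      _ = _ := by group) (by
    intro a
    apply he0
    exact (hupc _ _).symm) (by
    show u ^ (0 : ZMod p).val = 1
    rw [ZMod.val_zero, pow_zero])
  refine ⟨φ, ?_⟩
  rw [hφ, hex, inv_mul_cancel_left, pw_one]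
  exact huD

/-- `t` noncentral of order `p` odd -/
theorem case2 (hp2 : p ≠ 2) (hD : Nat.card (commutator G) = p) (hDZ : commutator G ≤ Subgroup.center G) {t x : G}
    (htx : x ∉ Subgroup.centralizer {t}) (htp : t ^ p = 1) :
    ∃ φ : MulAut G, x⁻¹ * φ x ∉ commutator G := by
  have hc1 : t⁻¹ * (x⁻¹ * t * x) ≠ 1 := by
    intro h
    apply htx
    rw [Subgroup.mem_centralizer_iff]
    intro y hy
    rw [Set.mem_singleton_iff.1 hy]
    calc t * x = x * (t * (t⁻¹ * (x⁻¹ * t * x))) := by group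
      _ = x * t := by rw [h, mul_one]
  have hcD : t⁻¹ * (x⁻¹ * t * x) ∈ commutator G := by
    have := conj_sub t x⁻¹
    rwa [inv_inv] at this
  obtain ⟨e, he, het, hex⟩ := exists_e hD hDZ hc1
  set c := t⁻¹ * (x⁻¹ * t * x) with hc
  have hcp : c ^ p = 1 := by
    have h1 : (⟨_, hcD⟩ : commutator G) ^ p = 1 := by rw [← hD]; exact pow_card_eq_one'
    exact congrArg Subtype.val h1
  have he0 : ∀ g, g * t = t * g → e g = 0 := by
    intro g hg
    apply pw_inj hcp hc1
    apply mul_left_cancel (a := t)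
    rw [← het, ZMod.val_zero, pow_zero, mul_one, mul_assoc, ← hg, inv_mul_cancel_left]
  have hcc : ∀ (k : ℕ) (g : G), g * c ^ k = c ^ k * g := fun k => Subgroup.mem_center_iff.1 ((Subgroup.center G).pow_mem (hDZ hcD) k)
  have h20 : (2 : ZMod p) ≠ 0 := by
    have : ((2 : ℕ) : ZMod p) ≠ 0 := by
      rw [Ne, ZMod.natCast_eq_zero_iff]
      intro h
      exact hp2 ((Nat.prime_dvd_prime_iff_eq hp.out Nat.prime_two).1 h)
    exact_mod_cast this
  obtain ⟨φ, hφ⟩ := mkAut e he (fun a => t ^ a.val * c ^ (a * a * 2⁻¹).val) (by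
    intro a h
    show h⁻¹ * (t ^ a.val * c ^ (a * a * 2⁻¹).val) * h * (t ^ (e h).val * c ^ (e h * e h * 2⁻¹).val) =
      t ^ (a + e h).val * c ^ ((a + e h) * (a + e h) * 2⁻¹).val
    have e1 : h⁻¹ * (t ^ a.val * c ^ (a * a * 2⁻¹).val) * h = t ^ a.val * (c ^ (e h * a).val * c ^ (a * a * 2⁻¹).val) := by
      have e2 : h⁻¹ * t ^ a.val * h = t ^ a.val * c ^ (e h * a).val := by
        have := conj_pow (i := a.val) (a := h⁻¹) (b := t)
        rw [inv_inv] at this
        rw [← this, het, pw_mul hcp]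
        have hcm : Commute t (c ^ (e h).val) := (hcc _ t)
        exact hcm.mul_pow _
      calc h⁻¹ * (t ^ a.val * c ^ (a * a * 2⁻¹).val) * h = h⁻¹ * t ^ a.val * (c ^ (a * a * 2⁻¹).val * h) := by group
        _ = h⁻¹ * t ^ a.val * (h * c ^ (a * a * 2⁻¹).val) := by rw [hcc]
        _ = (h⁻¹ * t ^ a.val * h) * c ^ (a * a * 2⁻¹).val := by group
        _ = _ := by rw [e2, mul_assoc]
    have e3 : ((a + e h) * (a + e h) * 2⁻¹ : ZMod p) = e h * a + a * a * 2⁻¹ + e h * e h * 2⁻¹ := by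
      field_simp
      ring
    rw [e1, pw_add htp, e3, pw_add hcp, pw_add hcp]
    have e4 := hcc (e h * a).val (t ^ (e h).val)
    have e5 := hcc (a * a * 2⁻¹).val (t ^ (e h).val)
    calc t ^ a.val * (c ^ (e h * a).val * c ^ (a * a * 2⁻¹).val) * (t ^ (e h).val * c ^ (e h * e h * 2⁻¹).val)
        = t ^ a.val * c ^ (e h * a).val * (c ^ (a * a * 2⁻¹).val * t ^ (e h).val) * c ^ (e h * e h * 2⁻¹).val := by group
      _ = t ^ a.val * (c ^ (e h * a).val * t ^ (e h).val) * c ^ (a * a * 2⁻¹).val * c ^ (e h * e h * 2⁻¹).val := by rw [← e5]; group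
      _ = _ := by rw [← e4]; group) (by
    intro a
    apply he0
    have e1 : Commute (t ^ a.val) t := (Commute.refl t).pow_left _
    have e2 : Commute (c ^ (a * a * 2⁻¹).val) t := (hcc _ t).symm
    exact (e1.mul_left e2).eq) (by
    show t ^ (0 : ZMod p).val * c ^ ((0 : ZMod p) * 0 * 2⁻¹).val = 1
    simp)
  refine ⟨φ, ?_⟩
  rw [hφ, hex, inv_mul_cancel_left, pw_one]
  intro h
  apply htx
  have h1 : t ∈ commutator G := by
    have h2 := (commutator G).mul_mem h ((commutator G).inv_mem ((commutator G).pow_mem hcD ((1 : ZMod p) * 1 * 2⁻¹).val))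
    rwa [mul_inv_cancel_right] at h2
  rw [Subgroup.mem_centralizer_iff]
  intro y hy
  rw [Set.mem_singleton_iff.1 hy]
  exact (Subgroup.mem_center_iff.1 (hDZ h1) x).symm

end

theorem zmod2_cases : ∀ a : ZMod 2, a = 0 ∨ a = 1 := by decide

/-- `p = 2` and `t ^ 2` is the commutator -/
theorem case3 {G : Type*} [Group G] [Finite G] (hD : Nat.card (commutator G) = 2) (hDZ : commutator G ≤ Subgroup.center G) {t x : G}
    (htx : x ∉ Subgroup.centralizer {t}) (ht1 : t * t ∈ commutator G) (ht2 : t * t ≠ 1) :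
    ∃ φ : MulAut G, x⁻¹ * φ x ∉ commutator G := by
  haveI : Fact (Nat.Prime 2) := ⟨Nat.prime_two⟩
  have hc1 : t⁻¹ * (x⁻¹ * t * x) ≠ 1 := by
    intro h
    apply htx
    rw [Subgroup.mem_centralizer_iff]
    intro y hy
    rw [Set.mem_singleton_iff.1 hy]
    calc t * x = x * (t * (t⁻¹ * (x⁻¹ * t * x))) := by group
      _ = x * t := by rw [h, mul_one]
  have hcD : t⁻¹ * (x⁻¹ * t * x) ∈ commutator G := by
    have := conj_sub t x⁻¹
    rwa [inv_inv] at this
  obtain ⟨e, he, het, hex⟩ := exists_e (p := 2) hD hDZ hc1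
  set c := t⁻¹ * (x⁻¹ * t * x) with hc
  have hcp : c ^ 2 = 1 := by
    have h1 : (⟨_, hcD⟩ : commutator G) ^ 2 = 1 := by rw [← hD]; exact pow_card_eq_one'
    exact congrArg Subtype.val h1
  have htc : t * t = c := by
    obtain ⟨n, hn⟩ := mem_powers_of_prime_card (p := 2) hD (g := (⟨c, hcD⟩ : commutator G)) (fun h => hc1 (congrArg Subtype.val h)) (g' := ⟨_, ht1⟩)
    have hn' : c ^ n = t * t := congrArg Subtype.val hn
    rw [pow_eq_pow_mod n hcp] at hn'
    rcases Nat.mod_two_eq_zero_or_one n with h | h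
    · rw [h, pow_zero] at hn'
      exact absurd hn'.symm ht2
    · rw [h, pow_one] at hn'
      exact hn'.symm
  have he0 : ∀ g, g * t = t * g → e g = 0 := by
    intro g hg
    apply pw_inj hcp hc1
    apply mul_left_cancel (a := t)
    rw [← het, ZMod.val_zero, pow_zero, mul_one, mul_assoc, ← hg, inv_mul_cancel_left]
  have hcases : ∀ a : ZMod 2, a = 0 ∨ a = 1 := zmod2_cases
  have v0 : (0 : ZMod 2).val = 0 := rfl
  have v1 : (1 : ZMod 2).val = 1 := rfl
  have v11 : (1 + 1 : ZMod 2).val = 0 := rfl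
  obtain ⟨φ, hφ⟩ := mkAut (p := 2) e he (fun a => t ^ a.val) (by
    intro a h
    show h⁻¹ * t ^ a.val * h * t ^ (e h).val = t ^ (a + e h).val
    rcases hcases a with rfl | rfl
    · rw [zero_add, v0, pow_zero]; group
    · rcases hcases (e h) with h0 | h1
      · have := het h
        rw [h0, v0, pow_zero, mul_one] at this
        rw [h0, add_zero, v0, v1, pow_one, pow_zero, mul_one]
        exact this
      · have := het h
        rw [h1, v1, pow_one] at this
        rw [h1, v1, v11, pow_one, pow_zero, this, mul_assoc, (Subgroup.mem_center_iff.1 (hDZ hcD) t).symm, ← mul_assoc, htc, ← sq, hcp]) (by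
    intro a
    apply he0
    exact ((Commute.refl t).pow_left _).eq) (by
    show t ^ (0 : ZMod 2).val = 1
    rw [ZMod.val_zero, pow_zero])
  refine ⟨φ, ?_⟩
  rw [hφ, hex, inv_mul_cancel_left]
  show t ^ (1 : ZMod 2).val ∉ _
  rw [v1, pow_one]
  intro h
  apply htx
  rw [Subgroup.mem_centralizer_iff]
  intro y hy
  rw [Set.mem_singleton_iff.1 hy]
  exact (Subgroup.mem_center_iff.1 (hDZ h) x).symm

end Cfsg.Agent.H10.Orb
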