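import Mathlib
import Cfsg.Agent.H10_BlockGal

/-!
H10_PRegSep: separation of p-regular classes modulo p by integral combinations of characters.
-/

set_option autoImplicit false
set_option linter.style.haveILetI false
set_option linter.unusedSectionVars false

namespace Cfsg.Agent.H10.PRegSep

open Cfsg Cfsg.Agent.H3.CharIrr Cfsg.Agent.H3.CharComplete Cfsg.Agent.H3.CharInd
  Cfsg.Agent.H3.CharBasic Cfsg.Agent.H3.CharInt
  Cfsg.Agent.H10.Char Cfsg.Agent.H10.RegPart Cfsg.Agent.H10.PPart Cfsg.Agent.H10.BlockGal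
open scoped ComplexConjugate

variable {G : Type*} [Group G] [Fintype G] {p : ℕ}

theorem conj_integral {z : ℂ} (h : IsIntegral ℤ z) : IsIntegral ℤ (conj z) := by
  exact h.map (starRingEnd ℂ).toIntAlgHom

theorem coeff_translate {C : Type*} [Group C] [Fintype C] {h : C → ℂ}
    (hh : IsGeneralizedCharacter C h) {z : C} (hz : z ∈ Subgroup.center C) {ψ : C → ℂ}
    (hψ : IsIrrCharacter C ψ) : IsIntegral ℤ (classInner (fun g => h (z⁻¹ * g)) ψ) := by
  obtain ⟨c, hc, hcm⟩ := IsIrr.central hψ hz
  have e : classInner (fun g => h (z⁻¹ * g)) ψ = conj c * classInner h ψ := by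
    rw [classInner, classInner]
    rw [← Equiv.sum_comp (Equiv.mulLeft z)]
    simp only [Equiv.coe_mulLeft, inv_mul_cancel_left]
    rw [mul_left_comm, Finset.mul_sum _ _ (conj c)]
    congr 1
    refine Finset.sum_congr rfl fun g _ => ?_
    rw [← (Subgroup.mem_center_iff.1 hz g), hcm, map_mul]
    ring
  obtain ⟨n, hn⟩ := ci_gen_int hh (IsGen.of_irr hψ)
  rw [e, hn]
  exact (conj_integral (IsIntegral.of_pow (orderOf_pos z) (by rw [hc]; exact isIntegral_one))).mul
    (isIntegral_algebraMap (x := n))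

theorem coeff_translate' {C : Type*} [Group C] [Fintype C] {h : C → ℂ}
    (hh : IsGeneralizedCharacter C h) {z : C} (hz : z ∈ Subgroup.center C) {ψ : C → ℂ}
    (hψ : IsCharacter C ψ) : IsIntegral ℤ (classInner (fun g => h (z⁻¹ * g)) ψ) := by
  classical
  haveI : Fintype (IrrCharacter C) := Fintype.ofFinite _
  have hcl : IsClassFunction C (fun g => h (z⁻¹ * g)) := by
    intro g x
    have h1 := IsGen.isClass hh (z⁻¹ * g) x
    have h2 : x * (z⁻¹ * g) * x⁻¹ = z⁻¹ * (x * g * x⁻¹) := by
      have h3 := Subgroup.mem_center_iff.1 ((Subgroup.center C).inv_mem hz) x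
      rw [← mul_assoc, h3]; group
    rw [h2] at h1
    exact h1
  rw [ci_eq_sum _ _ hcl]
  refine IsIntegral.sum _ fun χ _ => (coeff_translate hh hz χ.2).mul (conj_integral ?_)
  obtain ⟨n, hn⟩ := ci_gen_int (IsGen.of_char hψ) (IsGen.of_irr χ.2)
  rw [hn]
  exact isIntegral_algebraMap (x := n)

open Classical in
theorem sep [hp : Fact p.Prime] (u : G) (hu : ¬ p ∣ orderOf u) :
    ∃ (c : IrrCharacter G → ℂ) (m : ℕ), (∀ χ, IsIntegral ℤ (c χ)) ∧ ¬ p ∣ m ∧
      ∀ (_ : Fintype (IrrCharacter G)) (v : G), ¬ p ∣ orderOf v →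
        ∑ χ : IrrCharacter G, c χ * (χ : G → ℂ) v = if IsConj u v then (m : ℂ) else 0 := by
  set C := Subgroup.centralizer ({u} : Set G) with hC
  have huC : u ∈ C := Subgroup.mem_centralizer_singleton_iff.2 rfl
  have hzC : (⟨u, huC⟩ : C) ∈ Subgroup.center C := by
    rw [Subgroup.mem_center_iff]
    intro g
    have := Subgroup.mem_centralizer_singleton_iff.1 g.2
    exact Subtype.ext this
  obtain ⟨P⟩ : Nonempty (Sylow p C) := inferInstance
  set h : C → ℂ := fun g => if ppr p g = 1 then ((P : Subgroup C).index : ℂ) else 0 with hh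
  have hgen : IsGeneralizedCharacter C h := by
    convert pelt_gen P using 3
  set F : C → ℂ := fun g => h ((⟨u, huC⟩ : C)⁻¹ * g) with hF
  have hFone : ∀ g : C, ¬ p ∣ orderOf g → F g = if g = ⟨u, huC⟩ then ((P : Subgroup C).index : ℂ) else 0 := by
    intro g hg
    have hcomm : Commute (⟨u, huC⟩ : C)⁻¹ g :=
      (show Commute (⟨u, huC⟩ : C) g from ((Subgroup.mem_center_iff.1 hzC g).symm)).inv_left
    have hreg : ¬ p ∣ orderOf ((⟨u, huC⟩ : C)⁻¹ * g) := by
      intro hd
      have h1 := hd.trans (hcomm.orderOf_mul_dvd_lcm)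
      rcases (hp.out.dvd_mul).1 (h1.trans (Nat.lcm_dvd_mul _ _)) with h2 | h2
      · rw [orderOf_inv, Subgroup.orderOf_mk] at h2
        exact hu h2
      · exact hg h2
    show (if ppr p ((⟨u, huC⟩ : C)⁻¹ * g) = 1 then ((P : Subgroup C).index : ℂ) else 0) = _
    rw [ppr_regular hreg]
    by_cases hgu : g = ⟨u, huC⟩
    · rw [if_pos hgu, if_pos (by rw [hgu, inv_mul_cancel])]
    · rw [if_neg hgu, if_neg (fun h => hgu (inv_mul_eq_one.1 h).symm)]
  refine ⟨fun χ => classInner (indFun C F) (χ : G → ℂ), (P : Subgroup C).index, fun χ => ?_, P.not_dvd_index, ?_⟩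
  · show IsIntegral ℤ (classInner (indFun C F) (χ : G → ℂ))
    rw [frobenius C F _ (IsIrr.isClass χ.2)]
    exact coeff_translate' hgen hzC (IsChar.res (IsIrr.isCharacter χ.2) C)
  · intro _ v hv
    rw [← expand_apply _ (ind_isClass C F)]
    rw [indFun]
    have hterm : ∀ t : G, extendByZero C F (t⁻¹ * v * t) =
        if t⁻¹ * v * t = u then ((P : Subgroup C).index : ℂ) else 0 := by
      intro t
      by_cases hm : t⁻¹ * v * t ∈ C
      · rw [ext_mem C F hm, hFone _ ?_]
        · by_cases he : t⁻¹ * v * t = u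
          · rw [if_pos he, if_pos (Subtype.ext he)]
          · rw [if_neg he, if_neg (fun h => he (congrArg Subtype.val h))]
        · rw [Subgroup.orderOf_mk]
          have := orderOf_conj t⁻¹ v
          rw [inv_inv] at this
          rwa [this]
      · rw [ext_not_mem C F hm, if_neg]
        intro he
        exact hm (by rw [he]; exact huC)
    rw [Finset.sum_congr rfl (fun t _ => hterm t), ← Finset.sum_filter, Finset.sum_const, nsmul_eq_mul]
    by_cases hc : IsConj u v
    · rw [if_pos hc]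
      obtain ⟨s, hs⟩ := isConj_iff.1 hc
      have hcard : (Finset.univ.filter (fun t : G => t⁻¹ * v * t = u)).card = Nat.card C := by
        have h0 : (Finset.univ.filter (fun t : G => t ∈ C)).card = Nat.card C := by
          rw [Nat.card_eq_fintype_card, Fintype.card_subtype]
        rw [← h0]
        refine Finset.card_bij (fun t _ => s⁻¹ * t) ?_ ?_ ?_
        · intro t ht
          rw [Finset.mem_filter] at ht ⊢
          refine ⟨Finset.mem_univ _, ?_⟩
          rw [hC, Subgroup.mem_centralizer_singleton_iff]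
          have h1 := ht.2
          rw [← hs] at h1
          have h2 : s * u * s⁻¹ * t = t * u := by
            have := congrArg (fun z => t * z) h1
            simpa [mul_assoc] using this
          calc s⁻¹ * t * u = s⁻¹ * (t * u) := by group
            _ = s⁻¹ * (s * u * s⁻¹ * t) := by rw [h2]
            _ = u * (s⁻¹ * t) := by group
        · intro a _ b _ hab
          exact mul_left_cancel hab
        · intro b hb
          rw [Finset.mem_filter] at hb
          refine ⟨s * b, ?_, by group⟩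
          rw [Finset.mem_filter]
          refine ⟨Finset.mem_univ _, ?_⟩
          have h1 := Subgroup.mem_centralizer_singleton_iff.1 hb.2
          rw [← hs]
          calc (s * b)⁻¹ * (s * u * s⁻¹) * (s * b) = b⁻¹ * (u * b) := by group
            _ = b⁻¹ * (b * u) := by rw [h1]
            _ = u := by group
      rw [hcard, ← mul_assoc, inv_mul_cancel₀ (Nat.cast_ne_zero.2 Nat.card_pos.ne'), one_mul]
    · rw [if_neg hc, Finset.filter_eq_empty_iff.2, Finset.card_empty]
      · simp
      · intro t _ ht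
        apply hc
        rw [← ht]
        exact (isConj_iff.2 ⟨t, by group⟩)

theorem frob_mod {R : Type*} [CommRing R] {p : ℕ} (hp : p.Prime) {ι : Type*} (s : Finset ι)
    (f : ι → R) (k : ℕ) : ∃ r : R, (∑ i ∈ s, f i) ^ (p ^ k) = ∑ i ∈ s, f i ^ (p ^ k) + p * r := by
  classical
  induction s using Finset.induction_on with
  | empty =>
    refine ⟨0, ?_⟩
    rw [Finset.sum_empty, Finset.sum_empty, zero_pow (pow_pos hp.pos k).ne', mul_zero, add_zero]
  | insert a s ha ih =>
    obtain ⟨r, hr⟩ := ih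
    obtain ⟨t, ht⟩ := exists_add_pow_prime_pow_eq hp (f a) (∑ i ∈ s, f i) k
    refine ⟨r + f a * (∑ i ∈ s, f i) * t, ?_⟩
    rw [Finset.sum_insert ha, Finset.sum_insert ha, ht, hr]
    ring

/-- `χ(x) ^ (p ^ a) ≡ χ(x ^ (p ^ a))` modulo p -/
theorem pow_cong (hp : p.Prime) {χ : G → ℂ} (hχ : IsCharacter G χ) (x : G) (a : ℕ) :
    ∃ γ : AlgInt, χ x ^ (p ^ a) = χ (x ^ (p ^ a)) + (p : ℂ) * (γ : ℂ) := by
  obtain ⟨n, ρ, rfl⟩ := hχ
  obtain ⟨b, ζ, _, hζ, hc⟩ := exists_eigenbasis_rep ρ x (Nat.card G) card_ne_zero (pow_card_eq_one x)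
  have hint : ∀ i, IsIntegral ℤ (ζ i) := fun i =>
    IsIntegral.of_pow (Nat.pos_of_ne_zero (card_ne_zero (G := G))) (by rw [hζ i]; exact isIntegral_one)
  obtain ⟨r, hr⟩ := frob_mod (R := AlgInt) hp Finset.univ (fun i => (⟨ζ i, hint i⟩ : AlgInt)) a
  refine ⟨r, ?_⟩
  have h1 := hc 1
  have h2 := hc ((p ^ a : ℕ) : ℤ)
  rw [zpow_natCast] at h2
  simp only [zpow_one] at h1
  rw [h1, h2]
  have := congrArg (fun z : AlgInt => (z : ℂ)) hr
  push_cast at this
  simp only [zpow_natCast]
  convert this using 2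

end Cfsg.Agent.H10.PRegSep
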