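import Mathlib
import Cfsg.Prelude.Def_Characters

set_option autoImplicit false

/-! Linear independence of translates (H10). -/

namespace Cfsg.Agent.H10.TILin

/-- a valuation subring of `ℂ` with `p` a nonunit -/
theorem exists_val (p : ℕ) (hp : p.Prime) : ∃ V : ValuationSubring ℂ, (p : ℂ) ∈ V.nonunits := by
  let A : Subring ℂ := (Int.castRingHom ℂ).range
  let a : A := ⟨(p : ℂ), ⟨(p : ℤ), by simp⟩⟩
  have hI : Ideal.span {a} ≠ ⊤ := by
    rw [Ne, Ideal.span_singleton_eq_top]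
    intro hu
    obtain ⟨b, hb⟩ := hu.exists_right_inv
    obtain ⟨m, hm⟩ := b.2
    have h1 : (p : ℂ) * (b : ℂ) = 1 := congrArg Subtype.val hb
    rw [← hm] at h1
    have h2 : ((p : ℤ) * m : ℤ) = 1 := by
      have : (((p : ℤ) * m : ℤ) : ℂ) = 1 := by push_cast; exact h1
      exact_mod_cast this
    have h3 : (p : ℤ) ∣ 1 := ⟨m, h2.symm⟩
    have h4 : p ∣ 1 := by exact_mod_cast h3
    exact hp.one_lt.ne' (Nat.dvd_one.1 h4)
  obtain ⟨V, hV⟩ := Ideal.image_subset_nonunits_valuationSubring _ hI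
  exact ⟨V, hV.2 ⟨a, Ideal.mem_span_singleton_self a, rfl⟩⟩

section

variable {P : Type*} [Group P] [Fintype P] {p : ℕ} [hp : Fact p.Prime]

/-- in characteristic `p` a nonzero function on a `p`-group has a constant nonzero combination of translates -/
theorem exists_const (hP : IsPGroup p P) {k : Type*} [Field k] [CharP k p] (d : P → k) (hd : d ≠ 0) :
    ∃ (n : P → ZMod p) (c : k), c ≠ 0 ∧ ∀ x, ∑ y, (ZMod.castHom (dvd_refl p) k (n y)) * d (y⁻¹ * x) = c := by
  classical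
  let T : (P → ZMod p) →+ (P → k) :=
    { toFun := fun n x => ∑ y, (ZMod.castHom (dvd_refl p) k (n y)) * d (y⁻¹ * x)
      map_zero' := by
        funext x
        simp
      map_add' := fun a b => by
        funext x
        simp [add_mul, Finset.sum_add_distrib] }
  let D : AddSubgroup (P → k) := T.range
  have hTapp : ∀ (n : P → ZMod p) (x : P), T n x = ∑ y, (ZMod.castHom (dvd_refl p) k (n y)) * d (y⁻¹ * x) := fun _ _ => rfl
  have htrans : ∀ (z : P) (n : P → ZMod p) (x : P), T n (z⁻¹ * x) = T (fun y => n (z⁻¹ * y)) x := by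
    intro z n x
    rw [hTapp, hTapp, ← Equiv.sum_comp (Equiv.mulLeft z⁻¹)]
    refine Finset.sum_congr rfl fun y _ => ?_
    simp [mul_assoc]
  haveI : Finite D := by
    have : Finite (Set.range T) := Set.finite_range T
    exact this
  letI : MulAction P D :=
    { smul := fun z f => ⟨fun x => f.1 (z⁻¹ * x), by
        obtain ⟨n, hn⟩ := f.2
        refine ⟨fun y => n (z⁻¹ * y), ?_⟩
        funext x
        rw [← htrans, hn]⟩
      one_smul := fun f => Subtype.ext (by
        funext x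
        show f.1 (1⁻¹ * x) = f.1 x
        rw [inv_one, one_mul])
      mul_smul := fun a b f => Subtype.ext (by
        funext x
        show f.1 ((a * b)⁻¹ * x) = f.1 (b⁻¹ * (a⁻¹ * x))
        rw [mul_inv_rev, mul_assoc]) }
  have hdD : d ∈ D := by
    refine ⟨Pi.single 1 1, ?_⟩
    funext x
    rw [hTapp, Finset.sum_eq_single 1]
    · simp
    · intro y _ hy
      rw [Pi.single_eq_of_ne hy, map_zero, zero_mul]
    · intro h; exact absurd (Finset.mem_univ _) h
  have hcard : p ∣ Nat.card D := by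
    have h1 : Nat.card D ∣ Nat.card (P → ZMod p) := AddSubgroup.card_range_dvd T
    rw [Nat.card_fun, Nat.card_zmod] at h1
    obtain ⟨j, -, hj⟩ := (Nat.dvd_prime_pow hp.out).1 h1
    have hj0 : j ≠ 0 := by
      rintro rfl
      rw [pow_zero] at hj
      have := (Nat.card_eq_one_iff_unique.1 hj).1
      apply hd
      have h2 : (⟨d, hdD⟩ : D) = 0 := Subsingleton.elim _ _
      exact congrArg Subtype.val h2
    rw [hj]
    exact dvd_pow_self p hj0
  have h0 : (0 : D) ∈ MulAction.fixedPoints P D := by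
    intro z
    apply Subtype.ext
    rfl
  obtain ⟨f, hf, hf0⟩ := hP.exists_fixed_point_of_prime_dvd_card_of_fixed_point D hcard h0
  obtain ⟨n, hn⟩ := f.2
  have hfc : ∀ x, f.1 x = f.1 1 := by
    intro x
    have h1 := congrArg (fun g : D => g.1 x) (hf x)
    have h2 : f.1 (x⁻¹ * x) = f.1 x := h1
    rw [inv_mul_cancel] at h2
    exact h2.symm
  refine ⟨n, f.1 1, ?_, ?_⟩
  · intro h
    apply hf0
    apply Subtype.ext
    funext x
    rw [hfc, h]; rfl
  · intro x
    rw [← hTapp, hn, hfc]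

end

theorem lin_indep {G : Type*} [Group G] [Fintype G] {p : ℕ} [hp : Fact p.Prime] {n : ℕ}
    (ρ : Representation ℂ G (Fin n → ℂ)) (P : Subgroup G) [Fintype P] (hP : IsPGroup p P) {e w : Fin n → ℂ}
    (he : e ≠ 0) (c : G → ℕ) (hw : w = ∑ g : G, (c g : ℂ) • ρ g e) (hσ : ∑ x : P, ρ (x : G) w = -e) :
    LinearIndependent ℂ (fun x : P => ρ (x : G) w) := by
  classical
  obtain ⟨V, hpV⟩ := exists_val p hp.out
  let v := V.valuation
  have hvn : ∀ m : ℕ, v (m : ℂ) ≤ 1 := fun m => (V.valuation_le_one_iff _).2 (natCast_mem V m)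
  -- the two norms
  let B1 : (Fin n → ℂ) → Prop := fun u => ∀ g i, v ((ρ g u) i) ≤ 1
  let B0 : (Fin n → ℂ) → Prop := fun u => ∀ g i, v ((ρ g u) i) < 1
  have hB1s : ∀ {ι : Type _} (s : Finset ι) (F : ι → (Fin n → ℂ)), (∀ j ∈ s, B1 (F j)) → B1 (∑ j ∈ s, F j) := by
    intro ι s F hF g i
    rw [map_sum, Finset.sum_apply]
    exact Valuation.map_sum_le v (fun j hj => hF j hj g i)
  have hB0s : ∀ {ι : Type _} (s : Finset ι) (F : ι → (Fin n → ℂ)), (∀ j ∈ s, B0 (F j)) → B0 (∑ j ∈ s, F j) := by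
    intro ι s F hF g i
    rw [map_sum, Finset.sum_apply]
    exact Valuation.map_sum_lt v one_ne_zero (fun j hj => hF j hj g i)
  have hB1c : ∀ (a : ℂ) u, v a ≤ 1 → B1 u → B1 (a • u) := by
    intro a u ha hu g i
    rw [map_smul, Pi.smul_apply, smul_eq_mul, map_mul]
    exact mul_le_one' ha (hu g i)
  have hB0c : ∀ (a : ℂ) u, v a < 1 → B1 u → B0 (a • u) := by
    intro a u ha hu g i
    rw [map_smul, Pi.smul_apply, smul_eq_mul, map_mul]
    exact mul_lt_one_of_lt_of_le ha (hu g i)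
  have hB1ρ : ∀ h u, B1 u → B1 (ρ h u) := by
    intro h u hu g i
    rw [← Module.End.mul_apply, ← map_mul]
    exact hu _ i
  -- normalise `e`
  obtain ⟨i₁, hi₁⟩ : ∃ i, e i ≠ 0 := by
    by_contra hcon
    push Not at hcon
    exact he (funext hcon)
  obtain ⟨⟨g₀, i₀⟩, -, hmax⟩ := Finset.exists_max_image (Finset.univ : Finset (G × Fin n))
    (fun gi => v ((ρ gi.1 e) gi.2)) ⟨(1, i₁), Finset.mem_univ _⟩
  set c₀ := (ρ g₀ e) i₀ with hc₀
  have hc0 : c₀ ≠ 0 := by
    intro h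
    have h1 := hmax (1, i₁) (Finset.mem_univ _)
    simp only [← hc₀, h, map_zero, map_one, Module.End.one_apply, le_zero_iff] at h1
    exact hi₁ ((map_eq_zero v).1 h1)
  have hvc0 : v c₀ ≠ 0 := (map_ne_zero v).2 hc0
  set e' := c₀⁻¹ • e with he'
  set w' := c₀⁻¹ • w with hw'
  have he'1 : B1 e' := by
    intro g i
    have h1 := hmax (g, i) (Finset.mem_univ _)
    simp only [← hc₀] at h1
    rw [he', map_smul, Pi.smul_apply, smul_eq_mul, map_mul, map_inv₀]
    exact (inv_mul_le_one₀ (zero_lt_iff.2 hvc0)).2 h1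
  have he'0 : ¬ B0 e' := by
    intro h
    have h1 := h g₀ i₀
    rw [he', map_smul, Pi.smul_apply, smul_eq_mul, ← hc₀, inv_mul_cancel₀ hc0, map_one] at h1
    exact lt_irrefl _ h1
  have hw'1 : B1 w' := by
    have h1 : w' = ∑ g : G, (c g : ℂ) • ρ g e' := by
      rw [hw', hw, Finset.smul_sum]
      refine Finset.sum_congr rfl fun g _ => ?_
      rw [he', map_smul, smul_comm]
    rw [h1]
    exact hB1s _ _ (fun g _ => hB1c _ _ (hvn _) (hB1ρ g _ he'1))
  have hσ' : ∑ x : P, ρ (x : G) w' = -e' := by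
    rw [he', ← smul_neg, ← hσ, Finset.smul_sum]
    refine Finset.sum_congr rfl fun x _ => ?_
    rw [hw', map_smul]
  -- a relation
  by_contra hli
  rw [Fintype.not_linearIndependent_iff] at hli
  obtain ⟨d, hd, x₁, hx₁⟩ := hli
  obtain ⟨x₀, -, hxmax⟩ := Finset.exists_max_image (Finset.univ : Finset P) (fun x => v (d x)) ⟨x₁, Finset.mem_univ _⟩
  have hdx0 : d x₀ ≠ 0 := by
    intro h
    have h1 := hxmax x₁ (Finset.mem_univ _)
    simp only [h, map_zero, le_zero_iff] at h1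
    exact hx₁ ((map_eq_zero v).1 h1)
  have hvd0 : v (d x₀) ≠ 0 := (map_ne_zero v).2 hdx0
  have hdV : ∀ x, (d x₀)⁻¹ * d x ∈ V := by
    intro x
    rw [← V.valuation_le_one_iff, map_mul, map_inv₀]
    exact (inv_mul_le_one₀ (zero_lt_iff.2 hvd0)).2 (hxmax x (Finset.mem_univ _))
  let dV : P → V := fun x => ⟨(d x₀)⁻¹ * d x, hdV x⟩
  have hrel : ∑ x : P, (dV x : ℂ) • ρ (x : G) w' = 0 := by
    have h1 : ∀ x : P, (dV x : ℂ) • ρ (x : G) w' = ((d x₀)⁻¹ * c₀⁻¹) • (d x • ρ (x : G) w) := by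
      intro x
      show ((d x₀)⁻¹ * d x) • ρ (x : G) w' = _
      rw [hw', map_smul, smul_smul, smul_smul]
      congr 1
      ring
    rw [Finset.sum_congr rfl (fun x _ => h1 x), ← Finset.smul_sum, hd, smul_zero]
  let k := IsLocalRing.ResidueField V
  let res : V →+* k := IsLocalRing.residue V
  haveI hk : CharP k p := by
    have h1 : ((p : ℕ) : k) = 0 := by
      have h2 : res (p : V) = 0 := by
        rw [IsLocalRing.residue_eq_zero_iff, V.valuation_lt_one_iff]
        exact (V.mem_nonunits_iff).1 hpV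
      rwa [map_natCast] at h2
    exact (CharP.charP_iff_prime_eq_zero hp.out).2 h1
  have hd0 : (fun x => res (dV x)) ≠ 0 := by
    intro h
    have h1 := congrFun h x₀
    have h2 : dV x₀ = 1 := Subtype.ext (inv_mul_cancel₀ hdx0)
    simp only [h2, map_one, Pi.zero_apply] at h1
    exact one_ne_zero h1
  obtain ⟨m, c₁, hc₁, hm⟩ := exists_const hP (fun x => res (dV x)) hd0
  let f : P → V := fun x => ∑ y : P, (((m y).val : ℕ) : V) * dV (y⁻¹ * x)
  have hf : ∀ x, res (f x) = c₁ := by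
    intro x
    rw [← hm x]
    show res (∑ y : P, (((m y).val : ℕ) : V) * dV (y⁻¹ * x)) = _
    rw [map_sum]
    refine Finset.sum_congr rfl fun y _ => ?_
    rw [map_mul, map_natCast, ZMod.castHom_apply, ZMod.natCast_val]
  have hf1 : v (f 1 : ℂ) = 1 := by
    rw [← V.valuation_eq_one_iff, ← IsLocalRing.residue_ne_zero_iff_isUnit]
    intro h
    apply hc₁
    rw [← hf 1]; exact h
  have hfd : ∀ x, v ((f 1 : ℂ) - (f x : ℂ)) < 1 := by
    intro x
    have h1 : f 1 - f x ∈ IsLocalRing.maximalIdeal V := by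
      rw [← IsLocalRing.residue_eq_zero_iff, map_sub]
      show res (f 1) - res (f x) = 0
      rw [hf, hf, sub_self]
    exact (V.valuation_lt_one_iff _).1 h1
  have hfrel : ∑ x : P, (f x : ℂ) • ρ (x : G) w' = 0 := by
    have h1 : ∀ x : P, (f x : ℂ) • ρ (x : G) w' = ∑ y : P, (((m y).val : ℕ) : ℂ) • ((dV (y⁻¹ * x) : ℂ) • ρ (x : G) w') := by
      intro x
      rw [← Finset.sum_congr rfl (fun y _ => (mul_smul (((m y).val : ℕ) : ℂ) (dV (y⁻¹ * x) : ℂ) (ρ (x : G) w'))), ← Finset.sum_smul]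
      congr 1
      show ((∑ y : P, (((m y).val : ℕ) : V) * dV (y⁻¹ * x) : V) : ℂ) = _
      push_cast
      rfl
    rw [Finset.sum_congr rfl (fun x _ => h1 x), Finset.sum_comm]
    apply Finset.sum_eq_zero
    intro y _
    rw [← Finset.smul_sum]
    have h2 : ∑ x : P, (dV (y⁻¹ * x) : ℂ) • ρ (x : G) w' = ρ (y : G) (∑ x : P, (dV x : ℂ) • ρ (x : G) w') := by
      rw [map_sum, ← Equiv.sum_comp (Equiv.mulLeft y)]
      refine Finset.sum_congr rfl fun x _ => ?_
      show (dV (y⁻¹ * (y * x)) : ℂ) • ρ ((y * x : P) : G) w' = ρ (y : G) ((dV x : ℂ) • ρ (x : G) w')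
      have h4 : ρ (y : G) ((dV x : ℂ) • ρ (x : G) w') = (dV x : ℂ) • ρ (y : G) (ρ (x : G) w') := LinearMap.map_smul _ _ _
      rw [h4, inv_mul_cancel_left, Subgroup.coe_mul, map_mul]
      rfl
    rw [h2, hrel, map_zero, smul_zero]
  have hfin : B0 ((f 1 : ℂ) • e') := by
    have h1 : (f 1 : ℂ) • e' = - ∑ x : P, ((f 1 : ℂ) - (f x : ℂ)) • ρ (x : G) w' := by
      have h2 : ∑ x : P, ((f 1 : ℂ) - (f x : ℂ)) • ρ (x : G) w' = (f 1 : ℂ) • ∑ x : P, ρ (x : G) w' - ∑ x : P, (f x : ℂ) • ρ (x : G) w' := by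
        rw [Finset.smul_sum, ← Finset.sum_sub_distrib]
        exact Finset.sum_congr rfl fun x _ => sub_smul _ _ _
      rw [h2, hfrel, sub_zero, hσ', smul_neg, neg_neg]
    rw [h1, ← Finset.sum_neg_distrib]
    apply hB0s
    intro x _
    rw [← neg_smul]
    apply hB0c _ _ _ (hB1ρ _ _ hw'1)
    rw [Valuation.map_neg]
    exact hfd x
  apply he'0
  intro g i
  have h1 := hfin g i
  rw [map_smul, Pi.smul_apply, smul_eq_mul, map_mul, hf1, one_mul] at h1
  exact h1

end Cfsg.Agent.H10.TILin
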