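import Cfsg.Agent.H11_CompOf
import Cfsg.Agent.H1_Nilp
import Cfsg.Agent.H11_PComp3

set_option autoImplicit false
open Cfsg

/-!
Bender's maximal subgroup theorem: the Fitting subgroup part.
-/

namespace Cfsg.Agent.H11.Bender

universe u

open Subgroup Cfsg.Agent.H11.Cores Cfsg.Agent.H11.Components Cfsg.Agent.H13.Syl
  Cfsg.Agent.H11.Bal Cfsg.Agent.H11.AxB Cfsg.Agent.H11.Local
open scoped commutatorElement

variable {G : Type u} [Group G]

/-- `O_p(H)` inside `G`. -/
def QQ (p : ℕ) (H : Subgroup G) : Subgroup G := (pCore p H).map H.subtype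

theorem QQ_le (p : ℕ) (H : Subgroup G) : QQ p H ≤ H := Subgroup.map_subtype_le _

theorem QQ_isPGroup [Finite G] (p : ℕ) [Fact p.Prime] (H : Subgroup G) : IsPGroup p (QQ p H) :=
  (pCore_isPGroup p).map _

theorem normalizer_le_normalizer_QQ [Finite G] (p : ℕ) [Fact p.Prime] (H : Subgroup G) :
    normalizer (H : Set G) ≤ normalizer (QQ p H : Set G) :=
  le_normalizer_map_subtype_of_characteristic _ _

theorem comm_of_normalize {U V : Subgroup G} (hUV : U ≤ normalizer (V : Set G))
    (hVU : V ≤ normalizer (U : Set G)) (hd : Disjoint U V) : ⁅U, V⁆ = ⊥ := by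
  rw [eq_bot_iff, ← disjoint_iff.mp hd]
  refine le_inf ?_ ?_
  · exact le_normalizer_iff_commutator_le_left.mp hVU
  · exact le_normalizer_iff_commutator_le_right.mp hUV

theorem QQ_OO_disjoint [Finite G] {p : ℕ} [hp : Fact p.Prime] {U V : Subgroup G}
    (hU : IsPGroup p U) (hV : (Nat.card V).Coprime p) : Disjoint U V := by
  rw [disjoint_iff]
  apply Cfsg.Agent.H1.Basic.disjoint_of_coprime_card
  obtain ⟨n, hn⟩ := hU.exists_card_eq
  rw [hn]
  exact (hV.pow_right n).symm

/-- nilpotent groups: `A = O_p(A) O_{p'}(A)`. -/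
theorem sup_eq_of_nilpotent [Finite G] (p : ℕ) [hp : Fact p.Prime] {A : Subgroup G}
    (hA : Group.IsNilpotent A) : QQ p A ⊔ OO p A = A := by
  apply le_antisymm (sup_le (QQ_le _ _) (OO_le _ _))
  have h1 : (⊤ : Subgroup A) ≤ pCore p A ⊔ pPrimeCore p A := by
    haveI : Group.IsNilpotent (⊤ : Subgroup A) :=
      (Group.isNilpotent_congr Subgroup.topEquiv).mpr hA
    refine (le_iSup_pCore_of_nilpotent (N := (⊤ : Subgroup A)) this).trans ?_
    apply iSup_le
    rintro ⟨q, hq⟩
    by_cases h : q = p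
    · subst h; exact le_sup_left
    · refine le_trans ?_ le_sup_right
      apply le_pPrimeCore
      haveI : Fact q.Prime := ⟨hq⟩
      obtain ⟨n, hn⟩ := (pCore_isPGroup (G := A) q).exists_card_eq
      show (Nat.card (pCore q A)).Coprime p
      rw [hn]
      exact Nat.Coprime.pow_left n ((Nat.coprime_primes hq hp.out).mpr h)
  have h2 := Subgroup.map_mono (f := A.subtype) h1
  rw [Subgroup.map_sup, ← MonoidHom.range_eq_map, Subgroup.range_subtype] at h2
  exact h2

theorem OO_QQ_comm [Finite G] (p : ℕ) [hp : Fact p.Prime] (A : Subgroup G) :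
    ⁅QQ p A, OO p A⁆ = ⊥ :=
  comm_of_normalize ((QQ_le p A).trans (le_normalizer.trans (normalizer_le_normalizer_OO p A)))
    ((OO_le p A).trans (le_normalizer.trans (normalizer_le_normalizer_QQ p A)))
    (QQ_OO_disjoint (QQ_isPGroup p A) (OO_coprime p A))

/-- decomposition of elements of a nilpotent group -/
theorem decomp [Finite G] (p : ℕ) [hp : Fact p.Prime] {A : Subgroup G}
    (hA : Group.IsNilpotent A) {x : G} (hx : x ∈ A) :
    ∃ u ∈ QQ p A, ∃ v ∈ OO p A, x = u * v ∧ Commute u v := by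
  have hc := OO_QQ_comm p A
  rw [commutator_eq_bot_iff_le_centralizer] at hc
  have h1 : OO p A ≤ centralizer (QQ p A : Set G) := le_centralizer_iff.mp hc
  rw [← sup_eq_of_nilpotent p hA, Cfsg.Agent.H1.Basic.mem_sup_iff_of_le_normalizer
    (h1.trans (centralizer_le_normalizer _))] at hx
  obtain ⟨u, hu, v, hv, rfl⟩ := hx
  exact ⟨u, hu, v, hv, rfl, (mem_centralizer_iff.mp (h1 hv) u hu)⟩

theorem coprime_of_mem [Finite G] {p : ℕ} {V : Subgroup G} (hV : (Nat.card V).Coprime p) {v : G}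
    (hv : v ∈ V) : (orderOf v).Coprime p := by
  have : orderOf v ∣ Nat.card V := by
    rw [← Subgroup.orderOf_mk v hv]; exact orderOf_dvd_natCard _
  exact Nat.Coprime.coprime_dvd_left this hV

theorem eq_one_of_both [Finite G] {p : ℕ} [hp : Fact p.Prime] {u : G} (h1 : ∃ k : ℕ, u ^ p ^ k = 1)
    (h2 : (orderOf u).Coprime p) : u = 1 := by
  obtain ⟨k, hk⟩ := h1
  have h3 : orderOf u ∣ p ^ k := orderOf_dvd_of_pow_eq_one hk
  rw [← orderOf_eq_one_iff]
  exact Nat.eq_one_of_dvd_coprimes (h2.pow_right k) dvd_rfl h3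

/-- a `p'`-element of a nilpotent group is in `O_{p'}`. -/
theorem mem_OO_of_coprime [Finite G] (p : ℕ) [hp : Fact p.Prime] {A : Subgroup G}
    (hA : Group.IsNilpotent A) {x : G} (hx : x ∈ A) (hxo : (orderOf x).Coprime p) : x ∈ OO p A := by
  obtain ⟨u, hu, v, hv, rfl, huv⟩ := decomp p hA hx
  have h1 : u = 1 := by
    obtain ⟨k, hk⟩ := QQ_isPGroup p A ⟨u, hu⟩
    refine eq_one_of_both ⟨k, congrArg Subtype.val hk⟩ ?_
    have hv1 : (orderOf v⁻¹).Coprime p := by
      rw [orderOf_inv]; exact coprime_of_mem (OO_coprime p A) hv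
    have h2 : u = (u * v) * v⁻¹ := by group
    have h3 : Commute (u * v) v⁻¹ := (huv.mul_left (Commute.refl v)).inv_right
    have h4 := h3.orderOf_mul_dvd_mul_orderOf
    rw [← h2] at h4
    exact Nat.Coprime.coprime_dvd_left h4 (hxo.mul_left hv1)
  rw [h1, one_mul]; exact hv

theorem mem_QQ_of_pow [Finite G] (p : ℕ) [hp : Fact p.Prime] {A : Subgroup G}
    (hA : Group.IsNilpotent A) {x : G} (hx : x ∈ A) (hxo : ∃ k : ℕ, x ^ p ^ k = 1) :
    x ∈ QQ p A := by
  obtain ⟨u, hu, v, hv, rfl, huv⟩ := decomp p hA hx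
  have h1 : v = 1 := by
    apply eq_one_of_both _ (coprime_of_mem (OO_coprime p A) hv)
    obtain ⟨k, hk⟩ := QQ_isPGroup p A ⟨u, hu⟩
    obtain ⟨m, hm⟩ := hxo
    refine ⟨k + m, ?_⟩
    have hk' : u ^ p ^ k = 1 := congrArg Subtype.val hk
    rw [huv.mul_pow] at hm
    have h2 : v ^ p ^ m = (u ^ p ^ m)⁻¹ := eq_inv_of_mul_eq_one_right hm
    rw [add_comm, pow_add, pow_mul, h2, inv_pow, ← pow_mul, mul_comm, pow_mul, hk', one_pow, inv_one]
  rw [h1, mul_one]; exact hu

/-- Half of Bender's theorem. -/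
theorem half [Finite G] (p : ℕ) [hp : Fact p.Prime] {M N A B : Subgroup G} (hAM : A ≤ M)
    (hAN : A ≤ N) (hBM : B ≤ M) (hBN : B ≤ N) (hMA : M ≤ normalizer (A : Set G))
    (hNB : N ≤ normalizer (B : Set G)) (hAn : Group.IsNilpotent A) (hBn : Group.IsNilpotent B)
    (hCA : M ⊓ centralizer (A : Set G) ≤ A)
    (hsub : ∀ X : Subgroup G, X ≤ M → (X.subgroupOf M).IsSubnormal → Group.IsNilpotent X → X ≤ A)
    (hc : M ⊓ centralizer (QQ p B : Set G) ≤ N) : OO p B ≤ OO p A := by
  have hMAp := hMA.trans (normalizer_le_normalizer_QQ p A)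
  have hMAq := hMA.trans (normalizer_le_normalizer_OO p A)
  have hNBp := hNB.trans (normalizer_le_normalizer_QQ p B)
  have hNBq := hNB.trans (normalizer_le_normalizer_OO p B)
  have c1 : ⁅QQ p A, OO p B⁆ = ⊥ :=
    comm_of_normalize (((QQ_le p A).trans hAN).trans hNBq) (((OO_le p B).trans hBM).trans hMAp)
      (QQ_OO_disjoint (QQ_isPGroup p A) (OO_coprime p B))
  have c2 : ⁅QQ p B, OO p A⁆ = ⊥ :=
    comm_of_normalize (((QQ_le p B).trans hBM).trans hMAq) (((OO_le p A).trans hAN).trans hNBp)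
      (QQ_OO_disjoint (QQ_isPGroup p B) (OO_coprime p A))
  have c2' : QQ p B ≤ centralizer (OO p A : Set G) := commutator_eq_bot_iff_le_centralizer.mp c2
  have c1' : OO p B ≤ centralizer (QQ p A : Set G) := by
    rw [le_centralizer_iff, ← commutator_eq_bot_iff_le_centralizer]; exact c1
  -- p'-elements of C₁ centralize O_p(B)
  have key : ∀ c ∈ M ⊓ centralizer (QQ p A : Set G), (orderOf c).Coprime p →
      c ∈ centralizer (QQ p B : Set G) := by
    intro c hc1 hco
    rw [mem_centralizer_iff]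
    intro e he
    have heM : e ∈ M := hBM (QQ_le p B he)
    have hcM : c ∈ M := hc1.1
    -- ⁅c, e⁆ ∈ Z(A)
    have z1 : ⁅c, e⁆ ∈ centralizer (QQ p A : Set G) := by
      rw [commutatorElement_def]
      have h1 : e * c⁻¹ * e⁻¹ ∈ centralizer (QQ p A : Set G) := by
        have h2 := (Cfsg.Agent.H11.PComp.normalizer_le_normalizer_centralizer _) (hMAp heM)
        exact (Subgroup.mem_normalizer_iff.mp h2 _).mp (inv_mem hc1.2)
      have h3 : c * e * c⁻¹ * e⁻¹ = c * (e * c⁻¹ * e⁻¹) := by group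
      rw [h3]; exact mul_mem hc1.2 h1
    have z2 : ⁅c, e⁆ ∈ centralizer (OO p A : Set G) := by
      rw [commutatorElement_def]
      have h1 : c * e * c⁻¹ ∈ centralizer (OO p A : Set G) := by
        have h2 := (Cfsg.Agent.H11.PComp.normalizer_le_normalizer_centralizer _) (hMAq hcM)
        exact (Subgroup.mem_normalizer_iff.mp h2 _).mp (c2' he)
      exact mul_mem h1 (inv_mem (c2' he))
    have zM : ⁅c, e⁆ ∈ M := by
      rw [commutatorElement_def]
      exact mul_mem (mul_mem (mul_mem hcM heM) (inv_mem hcM)) (inv_mem heM)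
    have zC : ⁅c, e⁆ ∈ centralizer (A : Set G) := by
      rw [← sup_eq_of_nilpotent p hAn]
      have : QQ p A ⊔ OO p A ≤ centralizer (zpowers ⁅c, e⁆ : Set G) := by
        apply sup_le
        · rw [le_centralizer_iff, zpowers_le]; exact z1
        · rw [le_centralizer_iff, zpowers_le]; exact z2
      exact (zpowers_le.mp (le_centralizer_iff.mp this))
    have zA : ⁅c, e⁆ ∈ A := hCA ⟨zM, zC⟩
    obtain ⟨u, hu, v, hv, huv, hcuv⟩ := decomp p hAn zA
    -- v = 1
    obtain ⟨k, hk⟩ := QQ_isPGroup p B ⟨e, he⟩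
    have hk' : e ^ p ^ k = 1 := congrArg Subtype.val hk
    obtain ⟨m, hm⟩ := QQ_isPGroup p A ⟨u, hu⟩
    have hm' : u ^ p ^ m = 1 := congrArg Subtype.val hm
    have hve : Commute v e := (mem_centralizer_iff.mp (c2' he) v hv)
    -- e commutes with z? no; use c e c⁻¹ = z e = u v e
    have h1 : c * e * c⁻¹ = u * v * e := by
      rw [← huv, commutatorElement_def]; group
    -- u ∈ Z(A): commutes with everything in A; e normalizes QQ p A
    have huA : u ∈ A := QQ_le p A hu
    -- the group ⟨QQ p A, e⟩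
    have hpe : IsPGroup p (QQ p A ⊔ zpowers e : Subgroup G) := by
      rw [sup_comm]
      apply IsPGroup.to_sup_of_normal_right' _ (QQ_isPGroup p A)
        ((zpowers_le.mpr heM).trans hMAp)
      rintro ⟨_, n, rfl⟩
      refine ⟨k, Subtype.ext ?_⟩
      change (e ^ n) ^ p ^ k = 1
      rw [← zpow_natCast, ← zpow_mul, mul_comm, zpow_mul, zpow_natCast, hk', one_zpow]
    have hv1 : v = 1 := by
      have hue : u * e ∈ QQ p A ⊔ zpowers e :=
        mul_mem (mem_sup_left hu) (mem_sup_right (mem_zpowers e))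
      obtain ⟨l, hl⟩ := hpe ⟨_, hue⟩
      have hl' : (u * e) ^ p ^ l = 1 := congrArg Subtype.val hl
      have hvue : Commute v (u * e) := hcuv.symm.mul_right hve
      have h2 : c * e * c⁻¹ = v * (u * e) := by
        rw [h1, ← mul_assoc, hcuv.eq]
      have h3 : (c * e * c⁻¹) ^ p ^ (k + l) = 1 := by
        rw [conj_pow, pow_add, pow_mul, hk', one_pow]; group
      rw [h2, hvue.mul_pow] at h3
      have h4 : (u * e) ^ p ^ (k + l) = 1 := by
        rw [add_comm, pow_add, pow_mul, hl', one_pow]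
      rw [h4, mul_one] at h3
      exact eq_one_of_both ⟨_, h3⟩ (coprime_of_mem (OO_coprime p A) hv)
    rw [hv1, mul_one] at huv
    have h5 : Commute c ⁅c, e⁆ := by
      rw [huv]
      exact ((mem_centralizer_iff.mp hc1.2) u hu).symm
    have h6 := commute_of_commutator_commute p hco ⟨m, by rw [huv]; exact hm'⟩ h5
    exact h6.symm
  -- K₁ = O^p(C₁)
  let S : Set G := {c | c ∈ M ⊓ centralizer (QQ p A : Set G) ∧ (orderOf c).Coprime p}
  have hSN : closure S ≤ N := by
    rw [closure_le]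
    rintro c ⟨h1, h2⟩
    exact hc ⟨h1.1, key c h1 h2⟩
  have hSM : closure S ≤ M := by
    rw [closure_le]; rintro c ⟨h1, _⟩; exact h1.1
  have hMS : M ≤ normalizer ((closure S : Subgroup G) : Set G) := by
    intro m hm
    rw [mem_normalizer_iff_cj]
    have key2 : ∀ g ∈ M, cj g (closure S) ≤ closure S := by
      intro g hg
      change (closure S).map _ ≤ _
      rw [MonoidHom.map_closure, closure_le]
      rintro _ ⟨c, ⟨hc1, hc2⟩, rfl⟩
      apply Subgroup.subset_closure
      refine ⟨⟨M.mul_mem (M.mul_mem hg hc1.1) (M.inv_mem hg), ?_⟩, ?_⟩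
      · have h2 := (Cfsg.Agent.H11.PComp.normalizer_le_normalizer_centralizer _) (hMAp hg)
        exact (Subgroup.mem_normalizer_iff.mp h2 _).mp hc1.2
      · change (orderOf (MulAut.conj g c)).Coprime p
        rw [(MulAut.conj g).orderOf_eq c]; exact hc2
    apply le_antisymm (key2 m hm)
    rw [← cj_cj_inv m (closure S)]
    apply cj_mono
    rw [cj_cj_inv]
    exact key2 m⁻¹ (inv_mem hm)
  have hBS : OO p B ≤ closure S := by
    intro b hb
    apply Subgroup.subset_closure
    exact ⟨⟨hBM (OO_le p B hb), c1' hb⟩, coprime_of_mem (OO_coprime p B) hb⟩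
  have hBA : OO p B ≤ A := by
    apply hsub _ ((OO_le p B).trans hBM)
    · apply Cfsg.Agent.H11.Bal.subgroupOf_isSubnormal_trans (H' := closure S) _ hBS hSM
      · have : ((closure S).subgroupOf M).Normal := normal_subgroupOf_of_le_normalizer hMS
        exact this.isSubnormal
      · have : ((OO p B).subgroupOf (closure S)).Normal :=
          normal_subgroupOf_of_le_normalizer (hSN.trans hNBq)
        exact this.isSubnormal
    · exact Cfsg.Agent.H1.Nilp.isNilpotent_of_le (OO_le p B) hBn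
  intro b hb
  exact mem_OO_of_coprime p hAn (hBA hb) (coprime_of_mem (OO_coprime p B) hb)

end Cfsg.Agent.H11.Bender
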