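import Cfsg.Agent.H9_Jordan

set_option autoImplicit false

/-!
Permutation groups generated by two elements of large prime order.
-/

namespace Cfsg.Agent.H11.Cyc

open MulAction Equiv.Perm

variable {α : Type*} [Fintype α] [DecidableEq α]

theorem fs_trans_prime {G : Subgroup (Equiv.Perm α)} {q : ℕ} (hq : q.Prime) {g : Equiv.Perm α}
    (hgc : g.IsCycle) (hgq : g.support.card = q) (hg : g ∈ G) :
    IsPreprimitive (fixingSubgroup G (g.support : Set α)ᶜ)
        (SubMulAction.ofFixingSubgroup G (g.support : Set α)ᶜ) := by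
  classical
  have h1 := Equiv.Perm.isPretransitive_of_isCycle_mem hgc hg
  apply IsPreprimitive.of_prime_card
  have : Nat.card (SubMulAction.ofFixingSubgroup G (g.support : Set α)ᶜ) = q := by
    rw [Nat.card_eq_fintype_card, Fintype.card_subtype, ← hgq]
    congr 1
    ext x
    simp [SubMulAction.mem_ofFixingSubgroup_iff]
  rw [this]; exact hq

/-- A transitive group of degree `n` containing a cycle of prime length `q > n/2` is primitive. -/
theorem prim_of_cycle {G : Subgroup (Equiv.Perm α)} (hG : IsPretransitive G α) {q : ℕ}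
    (hq : q.Prime) (hn : Fintype.card α < 2 * q) {g : Equiv.Perm α}
    (hgc : g.IsCycle) (hgq : g.support.card = q) (hg : g ∈ G) : IsPreprimitive G α := by
  haveI := fs_trans_prime hq hgc hgq hg
  refine IsPreprimitive.of_card_lt
    (f := SubMulAction.ofFixingSubgroup_equivariantMap (M := G) (s := ((g.support : Set α)ᶜ))) ?_
  have h1 : Set.range (SubMulAction.ofFixingSubgroup_equivariantMap (M := G)
      (s := ((g.support : Set α)ᶜ))) = (g.support : Set α) := by
    ext x
    constructor
    · rintro ⟨y, rfl⟩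
      have := y.2
      rw [SubMulAction.mem_ofFixingSubgroup_iff] at this
      change (y : α) ∈ (g.support : Set α)
      by_contra h
      exact this h
    · intro hx
      exact ⟨⟨x, by rw [SubMulAction.mem_ofFixingSubgroup_iff]; simpa using hx⟩, rfl⟩
  rw [h1, Set.ncard_coe_finset, hgq, Nat.card_eq_fintype_card]
  exact hn

/-- transitivity -/
theorem trans_of_two {x y : Equiv.Perm α} {p q : ℕ} (hp : p.Prime) (hx : orderOf x = p)
    (hyc : y.IsCycle) (hyq : y.support.card = q) (hn : Fintype.card α < p + q)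
    (hcov : ∀ i, x i ≠ i ∨ y i ≠ i) :
    IsPretransitive (Subgroup.closure ({x, y} : Set (Equiv.Perm α))) α := by
  classical
  haveI : Fact p.Prime := ⟨hp⟩
  have hxm : x ∈ Subgroup.closure ({x, y} : Set (Equiv.Perm α)) := Subgroup.subset_closure (by simp)
  have hym : y ∈ Subgroup.closure ({x, y} : Set (Equiv.Perm α)) := Subgroup.subset_closure (by simp)
  have hmove : ∀ t : α, ∃ g ∈ Subgroup.closure ({x, y} : Set (Equiv.Perm α)), g t ∈ y.support := by
    intro t
    by_cases ht : y t = t
    · have hxt : x t ≠ t := (hcov t).resolve_right (fun h => h ht)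
      -- the orbit of `t` under `x`
      have hinj : Function.Injective (fun i : Fin p => (x ^ (i : ℕ)) t) := by
        have aux : ∀ i j : ℕ, i < j → j < p → (x ^ i) t ≠ (x ^ j) t := by
          intro i j hij hj heq
          have h1 : (x ^ (j - i)) t = t := by
            have h2 : (x ^ i) ((x ^ (j - i)) t) = (x ^ i) t := by
              rw [← Equiv.Perm.mul_apply, ← pow_add, Nat.add_sub_cancel' hij.le, heq]
            exact (x ^ i).injective h2
          have hcop : Nat.Coprime (j - i) p := by
            rw [Nat.coprime_comm, Nat.Prime.coprime_iff_not_dvd hp]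
            intro h
            have := Nat.le_of_dvd (by omega) h
            omega
          have h3 : ∀ k : ℕ, ((x ^ (j - i)) ^ k) t = t := by
            intro k
            exact Equiv.Perm.pow_apply_eq_self_of_apply_eq_self h1 k
          obtain ⟨k, hk⟩ := exists_pow_eq_self_of_coprime (x := x) (n := j - i) (by rw [hx]; exact hcop)
          have h4 := h3 k
          rw [hk] at h4
          exact hxt h4
        intro i j hij
        by_contra hne
        rcases lt_or_gt_of_ne (fun h => hne (Fin.ext h)) with h | h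
        · exact aux i j h j.2 hij
        · exact aux j i h i.2 hij.symm
      have h5 : ∃ i : Fin p, (x ^ (i : ℕ)) t ∈ y.support := by
        by_contra hcon
        push Not at hcon
        have hd : Disjoint (Finset.univ.image (fun i : Fin p => (x ^ (i : ℕ)) t)) y.support := by
          rw [Finset.disjoint_left]
          intro a ha
          rw [Finset.mem_image] at ha
          obtain ⟨i, -, rfl⟩ := ha
          exact hcon i
        have h6 := Finset.card_le_univ ((Finset.univ.image (fun i : Fin p => (x ^ (i : ℕ)) t)) ∪ y.support)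
        rw [Finset.card_union_of_disjoint hd, Finset.card_image_of_injective _ hinj, Finset.card_univ,
          Fintype.card_fin, hyq] at h6
        omega
      obtain ⟨i, hi⟩ := h5
      exact ⟨x ^ (i : ℕ), Subgroup.pow_mem _ hxm _, hi⟩
    · exact ⟨1, Subgroup.one_mem _, by rw [Equiv.Perm.mem_support]; exact ht⟩
  refine ⟨fun a b => ?_⟩
  obtain ⟨g, hg, hga⟩ := hmove a
  obtain ⟨h, hh, hhb⟩ := hmove b
  rw [Equiv.Perm.mem_support] at hga hhb
  obtain ⟨k, hk⟩ := hyc.exists_zpow_eq hga hhb
  refine ⟨⟨h⁻¹ * y ^ k * g, Subgroup.mul_mem _ (Subgroup.mul_mem _ (Subgroup.inv_mem _ hh)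
    (Subgroup.zpow_mem _ hym _)) hg⟩, ?_⟩
  change (h⁻¹ * y ^ k * g) a = b
  rw [Equiv.Perm.mul_apply, Equiv.Perm.mul_apply, hk]
  exact Equiv.symm_apply_apply h b

theorem cycle_of_order {y : Equiv.Perm α} {q : ℕ} (hq : q.Prime) (hy : orderOf y = q)
    (hn : Fintype.card α < 2 * q) : y.IsCycle ∧ y.support.card = q := by
  have h1 : y.IsCycle := isCycle_of_prime_order' (by rw [hy]; exact hq) (by rw [hy]; exact hn)
  exact ⟨h1, by rw [← h1.orderOf, hy]⟩

theorem closure_le_alt {x y : Equiv.Perm α} (hx : sign x = 1) (hy : sign y = 1) :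
    Subgroup.closure ({x, y} : Set (Equiv.Perm α)) ≤ alternatingGroup α := by
  rw [Subgroup.closure_le]
  intro z hz
  rcases hz with rfl | hz
  · exact Equiv.Perm.mem_alternatingGroup.mpr hx
  · rw [Set.mem_singleton_iff] at hz
    rw [hz]; exact Equiv.Perm.mem_alternatingGroup.mpr hy

/-- Jordan applied to `x`. -/
theorem alt_x {x y : Equiv.Perm α} {p q : ℕ} (hp : p.Prime) (hq : q.Prime) (hx : orderOf x = p)
    (hy : orderOf y = q) (hxs : sign x = 1) (hys : sign y = 1)
    (hcov : ∀ i, x i ≠ i ∨ y i ≠ i) (hpq : p < q) (hn : Fintype.card α < 2 * p)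
    (hn3 : p + 3 ≤ Fintype.card α) :
    Subgroup.closure ({x, y} : Set (Equiv.Perm α)) = alternatingGroup α := by
  obtain ⟨hxc, hxp⟩ := cycle_of_order hp hx hn
  obtain ⟨hyc, hyq⟩ := cycle_of_order hq hy (by omega)
  have hym : y ∈ Subgroup.closure ({x, y} : Set (Equiv.Perm α)) := Subgroup.subset_closure (by simp)
  have hxm : x ∈ Subgroup.closure ({x, y} : Set (Equiv.Perm α)) := Subgroup.subset_closure (by simp)
  have h1 := trans_of_two hp hx hyc hyq (by omega) hcov
  have h2 := prim_of_cycle h1 hq (by omega) hyc hyq hym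
  exact le_antisymm (closure_le_alt hxs hys)
    (H9.Jordan.alternatingGroup_le_of_isCycle_mem _ h2 hp hn3 hxc hxp hxm)

/-- Jordan applied to `y`. -/
theorem alt_y {x y : Equiv.Perm α} {p q : ℕ} (hp : p.Prime) (hq : q.Prime) (hx : orderOf x = p)
    (hy : orderOf y = q) (hxs : sign x = 1) (hys : sign y = 1)
    (hcov : ∀ i, x i ≠ i ∨ y i ≠ i) (hpq : p < q) (hn : Fintype.card α ≤ 2 * p)
    (hn3 : q + 3 ≤ Fintype.card α) :
    Subgroup.closure ({x, y} : Set (Equiv.Perm α)) = alternatingGroup α := by
  obtain ⟨hyc, hyq⟩ := cycle_of_order hq hy (by omega)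
  have hym : y ∈ Subgroup.closure ({x, y} : Set (Equiv.Perm α)) := Subgroup.subset_closure (by simp)
  have h1 := trans_of_two hp hx hyc hyq (by omega) hcov
  have h2 := prim_of_cycle h1 hq (by omega) hyc hyq hym
  exact le_antisymm (closure_le_alt hxs hys)
    (H9.Jordan.alternatingGroup_le_of_isCycle_mem _ h2 hq hn3 hyc hyq hym)

/-- 3-cycles -/
theorem alt_three {x y : Equiv.Perm α} {q : ℕ} (hq : q.Prime) (hx : x.IsThreeCycle)
    (hy : orderOf y = q) (hys : sign y = 1)
    (hcov : ∀ i, x i ≠ i ∨ y i ≠ i) (hpq : 3 < q) (hn : Fintype.card α < 3 + q) :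
    Subgroup.closure ({x, y} : Set (Equiv.Perm α)) = alternatingGroup α := by
  obtain ⟨hyc, hyq⟩ := cycle_of_order hq hy (by omega)
  have hym : y ∈ Subgroup.closure ({x, y} : Set (Equiv.Perm α)) := Subgroup.subset_closure (by simp)
  have hxm : x ∈ Subgroup.closure ({x, y} : Set (Equiv.Perm α)) := Subgroup.subset_closure (by simp)
  have h1 := trans_of_two Nat.prime_three hx.orderOf hyc hyq (by omega) hcov
  have h2 := prim_of_cycle h1 hq (by omega) hyc hyq hym
  exact le_antisymm (closure_le_alt hx.sign hys)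
    (Equiv.Perm.alternatingGroup_le_of_isPreprimitive_of_isThreeCycle_mem h2 hx hxm)

end Cfsg.Agent.H11.Cyc
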