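import Mathlib
import Cfsg.Prelude.Def_GeometricClasses

/-! Transvections over a subfield not normalizing a field of matrices. -/

set_option autoImplicit false

namespace Cfsg.Agent.H11.ExtF

open Matrix

theorem TV {F : Type*} [Field F] [Fintype F] {n : ℕ} (hn : 0 < n) {L : Type*} [Field L] [Finite L]
    (ρ : L →+* Matrix (Fin n) (Fin n) F) (E : Subfield L)
    (hF : ∀ c : F, ∃ e ∈ E, ρ e = c • (1 : Matrix (Fin n) (Fin n) F))
    (hcard : Nat.card E ^ 2 < Fintype.card F ^ n) (x : L) (hx : x ∉ E) :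
    ∃ N : Matrix (Fin n) (Fin n) F, N * N = 0 ∧ (∀ e ∈ E, N * ρ e = ρ e * N) ∧
      ∀ y : L, (1 + N) * ρ x * (1 - N) ≠ ρ y := by
  classical
  letI : Module E (Fin n → F) :=
    { smul := fun e v => ρ (e : L) *ᵥ v
      one_smul := fun v => by
        show ρ ((1 : E) : L) *ᵥ v = v
        simp
      mul_smul := fun a b v => by
        show ρ ((a * b : E) : L) *ᵥ v = ρ (a : L) *ᵥ (ρ (b : L) *ᵥ v)
        rw [mulVec_mulVec, ← map_mul]; rfl
      smul_zero := fun a => by
        show ρ (a : L) *ᵥ 0 = 0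
        simp
      smul_add := fun a v w => by
        show ρ (a : L) *ᵥ (v + w) = ρ (a : L) *ᵥ v + ρ (a : L) *ᵥ w
        rw [mulVec_add]
      add_smul := fun a b v => by
        show ρ ((a + b : E) : L) *ᵥ v = ρ (a : L) *ᵥ v + ρ (b : L) *ᵥ v
        rw [← add_mulVec, ← map_add]; rfl
      zero_smul := fun v => by
        show ρ ((0 : E) : L) *ᵥ v = 0
        simp }
  have hsm : ∀ (e : E) (v : Fin n → F), e • v = ρ (e : L) *ᵥ v := fun e v => rfl
  have hinj : ∀ (l : L) (u : Fin n → F), l ≠ 0 → ρ l *ᵥ u = 0 → u = 0 := by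
    intro l u hl hu
    have : ρ l⁻¹ *ᵥ (ρ l *ᵥ u) = 0 := by rw [hu, mulVec_zero]
    rwa [mulVec_mulVec, ← map_mul, inv_mul_cancel₀ hl, map_one, one_mulVec] at this
  set v : Fin n → F := fun _ => 1 with hv
  have hv0 : v ≠ 0 := fun h => one_ne_zero (congrFun h ⟨0, hn⟩)
  have hw : ρ x *ᵥ v ∉ Submodule.span E {v} := by
    intro h
    rw [Submodule.mem_span_singleton] at h
    obtain ⟨e, he⟩ := h
    rw [hsm] at he
    have h1 : ρ (x - e) *ᵥ v = 0 := by
      rw [map_sub, sub_mulVec, he, sub_self]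
    have h2 : x - e ≠ 0 := fun h => hx (by rw [sub_eq_zero.1 h]; exact e.2)
    exact hv0 (hinj _ _ h2 h1)
  obtain ⟨φ, hφ1, hφ2⟩ := Submodule.exists_le_ker_of_notMem hw
  have hφv : φ v = 0 := hφ2 (Submodule.mem_span_singleton_self v)
  have hφs : ∀ (e : E) (u : Fin n → F), φ (ρ (e : L) *ᵥ u) = e * φ u := fun e u => by
    rw [← hsm, map_smul, smul_eq_mul]
  let f : (Fin n → F) →ₗ[F] (Fin n → F) :=
    { toFun := fun u => ρ (φ u : L) *ᵥ v
      map_add' := fun a b => by
        have h : ((φ (a + b) : E) : L) = (φ a : L) + (φ b : L) := by rw [map_add]; rfl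
        rw [h, map_add, add_mulVec]
      map_smul' := fun c a => by
        obtain ⟨e, he, hec⟩ := hF c
        have h1 : c • a = ρ ((⟨e, he⟩ : E) : L) *ᵥ a := by
          show c • a = ρ e *ᵥ a
          rw [hec, smul_mulVec, one_mulVec]
        rw [h1, hφs]
        show ρ (e * (φ a : L)) *ᵥ v = c • (ρ (φ a : L) *ᵥ v)
        rw [map_mul, hec, smul_mul_assoc, one_mul, smul_mulVec] }
  have hN : ∀ u, LinearMap.toMatrix' f *ᵥ u = ρ (φ u : L) *ᵥ v := fun u => by
    rw [LinearMap.toMatrix'_mulVec]; rfl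
  set N := LinearMap.toMatrix' f with hNd
  refine ⟨N, ?_, ?_, ?_⟩
  · apply Matrix.mulVec_injective
    funext u
    rw [← mulVec_mulVec, hN, hN, zero_mulVec, hφs, hφv, mul_zero]
    simp
  · intro e he
    apply Matrix.mulVec_injective
    funext u
    rw [← mulVec_mulVec, ← mulVec_mulVec, hN, hN]
    have := hφs ⟨e, he⟩ u
    simp only at this
    rw [this, mulVec_mulVec, ← map_mul]; rfl
  · intro y hy
    have hcardV : Nat.card (E × E) < Nat.card (Fin n → F) := by
      rw [Nat.card_prod, ← sq, Nat.card_eq_fintype_card (α := Fin n → F), Fintype.card_fun, Fintype.card_fin]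
      exact hcard
    have hni : ¬ Function.Injective (fun u : Fin n → F => ((φ u, φ (ρ x *ᵥ u)) : E × E)) := by
      intro h
      exact absurd (Nat.card_le_card_of_injective _ h) (not_le.2 hcardV)
    rw [Function.not_injective_iff] at hni
    obtain ⟨a, b, hab, hne⟩ := hni
    simp only [Prod.mk.injEq] at hab
    set d := a - b with hd
    have hd0 : d ≠ 0 := sub_ne_zero.2 hne
    have hd1 : φ d = 0 := by rw [hd, map_sub, hab.1, sub_self]
    have hd2 : φ (ρ x *ᵥ d) = 0 := by rw [hd, mulVec_sub, map_sub, hab.2, sub_self]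
    have hdiff : ρ (y - x) = N * ρ x - ρ x * N - N * ρ x * N := by
      rw [map_sub, ← hy]; noncomm_ring
    have e1 : ρ (y - x) *ᵥ d = 0 := by
      rw [hdiff, sub_mulVec, sub_mulVec, ← mulVec_mulVec, ← mulVec_mulVec, ← mulVec_mulVec, hN d, hd1, hN, hd2]
      simp
    have e2 : y - x = 0 := by
      by_contra h
      exact hd0 (hinj _ _ h e1)
    have e3 : (N * ρ x - ρ x * N - N * ρ x * N) *ᵥ v = 0 := by
      rw [← hdiff, e2, map_zero, zero_mulVec]
    rw [sub_mulVec, sub_mulVec, ← mulVec_mulVec, ← mulVec_mulVec, ← mulVec_mulVec, hN v, hφv, hN] at e3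
    simp only [ZeroMemClass.coe_zero, map_zero, zero_mulVec, mulVec_zero, sub_zero] at e3
    have h5 : ((φ (ρ x *ᵥ v) : E) : L) ≠ 0 := fun h => hφ1 (Subtype.ext h)
    exact hv0 (hinj _ _ h5 e3)

end Cfsg.Agent.H11.ExtF
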