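import Mathlib
import Cfsg.Prelude.Def_GeometricClasses
import Cfsg.Agent.H11_ExtF

/-! Extension field normalizers of composite degree are not maximal. -/

set_option autoImplicit false

namespace Cfsg.Agent.H11.ExtF

open Matrix

/-- normalizer of a set of matrices -/
def setNorm {F : Type*} [Field F] {n : ℕ} (S : Set (Matrix (Fin n) (Fin n) F)) : Subgroup (GL (Fin n) F) where
  carrier := {g | ∀ k : Matrix (Fin n) (Fin n) F, k ∈ S ↔ (g : Matrix (Fin n) (Fin n) F) * k * ((g⁻¹ : GL (Fin n) F) : Matrix (Fin n) (Fin n) F) ∈ S}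
  mul_mem' {a b} ha hb := by
    intro k
    rw [hb k, ha, Units.val_mul, _root_.mul_inv_rev, Units.val_mul]
    constructor <;> intro h <;> simpa [mul_assoc] using h
  one_mem' := by
    intro k
    simp
  inv_mem' {a} ha := by
    intro k
    have h := ha (((a⁻¹ : GL (Fin n) F) : Matrix (Fin n) (Fin n) F) * k * (a : Matrix (Fin n) (Fin n) F))
    rw [inv_inv]
    have e : (a : Matrix (Fin n) (Fin n) F) * (((a⁻¹ : GL (Fin n) F) : Matrix (Fin n) (Fin n) F) * k * (a : Matrix (Fin n) (Fin n) F)) * ((a⁻¹ : GL (Fin n) F) : Matrix (Fin n) (Fin n) F) = k := by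
      have e1 : (a : Matrix (Fin n) (Fin n) F) * ((a⁻¹ : GL (Fin n) F) : Matrix (Fin n) (Fin n) F) = 1 := Units.mul_inv a
      calc _ = ((a : Matrix (Fin n) (Fin n) F) * ((a⁻¹ : GL (Fin n) F) : Matrix (Fin n) (Fin n) F)) * k *
            ((a : Matrix (Fin n) (Fin n) F) * ((a⁻¹ : GL (Fin n) F) : Matrix (Fin n) (Fin n) F)) := by noncomm_ring
        _ = k := by rw [e1, one_mul, mul_one]
    rw [e] at h
    exact h.symm

theorem fixed_card {L : Type*} [Field L] [Finite L] (E : Subfield L) (m : ℕ) (hm : 1 < m)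
    (hE : ∀ x ∈ E, x ^ m = x) : Nat.card E ≤ m := by
  classical
  haveI := Fintype.ofFinite L
  haveI := Fintype.ofFinite E
  have hne := FiniteField.X_pow_card_sub_X_ne_zero L hm
  have hdeg := FiniteField.X_pow_card_sub_X_natDegree_eq L hm
  have h1 : (Finset.univ.image (fun x : E => (x : L))) ⊆ (Polynomial.X ^ m - Polynomial.X : Polynomial L).roots.toFinset := by
    intro y hy
    rw [Finset.mem_image] at hy
    obtain ⟨x, _, rfl⟩ := hy
    rw [Multiset.mem_toFinset, Polynomial.mem_roots hne, Polynomial.IsRoot.def]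
    simp [hE x.1 x.2]
  have h2 := Finset.card_le_card h1
  rw [Finset.card_image_of_injective _ Subtype.val_injective, Finset.card_univ] at h2
  rw [Nat.card_eq_fintype_card]
  calc Fintype.card E ≤ _ := h2
    _ ≤ Multiset.card (Polynomial.X ^ m - Polynomial.X : Polynomial L).roots := Multiset.toFinset_card_le _
    _ ≤ (Polynomial.X ^ m - Polynomial.X : Polynomial L).natDegree := Polynomial.card_roots' _
    _ = m := hdeg

theorem unip {F : Type*} [Field F] [Fintype F] {n : ℕ} (N : Matrix (Fin n) (Fin n) F) (hN : N * N = 0) :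
    ∃ g : GL (Fin n) F, (g : Matrix (Fin n) (Fin n) F) = 1 + N ∧ ((g⁻¹ : GL (Fin n) F) : Matrix (Fin n) (Fin n) F) = 1 - N ∧
      g ∈ Cfsg.Geo.specialLinear (Fin n) F := by
  have h1 : (1 + N) * (1 - N) = 1 := by
    have : (1 + N) * (1 - N) = 1 - N * N := by noncomm_ring
    rw [this, hN, sub_zero]
  have h2 : (1 - N) * (1 + N) = 1 := by
    have : (1 - N) * (1 + N) = 1 - N * N := by noncomm_ring
    rw [this, hN, sub_zero]
  refine ⟨⟨1 + N, 1 - N, h1, h2⟩, rfl, rfl, ?_⟩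
  rw [Cfsg.Geo.specialLinear, MonoidHom.mem_ker]
  apply Units.ext
  show (1 + N).det = 1
  obtain ⟨p, hp⟩ := CharP.exists F
  haveI := hp
  have hpp : p.Prime := (CharP.char_is_prime F p)
  haveI := Fact.mk hpp
  have hpow : ∀ k : ℕ, (1 + N) ^ k = 1 + (k : F) • N := by
    intro k
    induction k with
    | zero => simp
    | succ k ih =>
      rw [pow_succ, ih, add_mul, one_mul, smul_mul_assoc, mul_add, mul_one, hN, add_zero]
      push_cast
      rw [add_smul, one_smul]; abel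
  have h3 : (1 + N) ^ p = 1 := by rw [hpow p, CharP.cast_eq_zero, zero_smul, add_zero]
  have h4 : ((1 + N).det) ^ p = 1 := by rw [← det_pow, h3, det_one]
  have h5 : ((1 + N).det - 1) ^ p = 0 := by rw [sub_pow_char, h4, one_pow, sub_self]
  exact sub_eq_zero.1 (pow_eq_zero_iff hpp.ne_zero |>.1 h5)

theorem main_aux {F : Type*} [Field F] [Fintype F] (n r : ℕ) (hr1 : 1 < r) (hrp : ¬ r.Prime)
    (hrn : r ∣ n) (hlt : r < n) {L : Type*} [Field L] [Finite L] (ρ : L →+* Matrix (Fin n) (Fin n) F)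
    (hL : Nat.card L = Fintype.card F ^ r) (K : Subalgebra F (Matrix (Fin n) (Fin n) F))
    (hK : ∀ A, A ∈ K ↔ ∃ l, ρ l = A) :
    ¬ IsCoatom (Cfsg.Geo.subalgebraNormalizer K) ∧
      ¬ Cfsg.Geo.IsMaximalIn (Cfsg.Geo.specialLinear (Fin n) F)
        (Cfsg.Geo.subalgebraNormalizer K ⊓ Cfsg.Geo.specialLinear (Fin n) F) := by
  classical
  have hn0 : 0 < n := by omega
  haveI : Nonempty (Fin n) := ⟨⟨0, hn0⟩⟩
  set q := Fintype.card F with hq
  have hq1 : 1 < q := Fintype.one_lt_card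
  have hρ : Function.Injective ρ := ρ.injective
  obtain ⟨p, hp⟩ := CharP.exists F
  haveI := hp
  haveI := Fact.mk (CharP.char_is_prime F p)
  haveI : CharP (Matrix (Fin n) (Fin n) F) p := inferInstance
  haveI : CharP L p := RingHom.charP ρ hρ p
  obtain ⟨k, _, hk⟩ := FiniteField.card F p
  -- subfields
  have hsub : ∀ j : ℕ, ∃ E : Subfield L, ∀ x, x ∈ E ↔ x ^ (q ^ j) = x := by
    intro j
    refine ⟨(iterateFrobenius L p (k * j)).eqLocusField (RingHom.id L), fun x => ?_⟩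
    rw [RingHom.mem_eqLocusField, iterateFrobenius_def, RingHom.id_apply, hq, hk, ← pow_mul]
  have hscal : ∀ (j : ℕ) (E : Subfield L), (∀ x, x ∈ E ↔ x ^ (q ^ j) = x) →
      ∀ c : F, ∃ e ∈ E, ρ e = c • (1 : Matrix (Fin n) (Fin n) F) := by
    intro j E hE c
    obtain ⟨l, hl⟩ := (hK (c • (1 : Matrix (Fin n) (Fin n) F))).1 (K.smul_mem K.one_mem c)
    refine ⟨l, (hE l).2 (hρ ?_), hl⟩
    rw [map_pow, hl, smul_pow, one_pow, hq, FiniteField.pow_card_pow]
  have hn2 : ∃ s, 2 ≤ s ∧ n = r * s := by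
    obtain ⟨s, hs⟩ := hrn
    refine ⟨s, ?_, hs⟩
    by_contra h
    interval_cases s <;> omega
  obtain ⟨s, hs2, hns⟩ := hn2
  set ℓ := r.minFac with hℓ
  have hℓp : ℓ.Prime := Nat.minFac_prime (by omega)
  obtain ⟨m, hm⟩ : ℓ ∣ r := Nat.minFac_dvd r
  have hm2 : 2 ≤ m := by
    by_contra h
    interval_cases m
    · omega
    · rw [mul_one] at hm
      exact hrp (hm ▸ hℓp)
  have hℓ2 := hℓp.two_le
  have h4 : 4 * ℓ ≤ n := by
    rw [hns, hm]
    calc 4 * ℓ = ℓ * 2 * 2 := by ring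
      _ ≤ ℓ * m * s := Nat.mul_le_mul (Nat.mul_le_mul_left _ hm2) hs2
  obtain ⟨E, hE⟩ := hsub ℓ
  obtain ⟨E1, hE1⟩ := hsub 1
  have hcE : Nat.card E ≤ q ^ ℓ := fixed_card E _ (Nat.one_lt_pow (by omega) hq1) (fun x hx => (hE x).1 hx)
  have hcE1 : Nat.card E1 ≤ q ^ 1 := fixed_card E1 _ (Nat.one_lt_pow (by omega) hq1) (fun x hx => (hE1 x).1 hx)
  -- an element outside E
  obtain ⟨x, hx⟩ : ∃ x : L, x ∉ E := by
    by_contra h
    push Not at h
    have h1 : Nat.card L ≤ Nat.card E := Nat.card_le_card_of_injective (fun y : L => (⟨y, h y⟩ : E))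
      (fun a b hab => congrArg Subtype.val hab)
    rw [hL] at h1
    have h2 : q ^ ℓ < q ^ r := Nat.pow_lt_pow_right hq1 (by rw [hm]; nlinarith)
    omega
  -- an element of E outside E1
  obtain ⟨a, haE, ha1⟩ : ∃ a : L, a ∈ E ∧ a ∉ E1 := by
    haveI := Fintype.ofFinite L
    obtain ⟨γ, hγ⟩ := IsCyclic.exists_generator (α := Lˣ)
    have ho : orderOf γ = q ^ r - 1 := by
      rw [orderOf_eq_card_of_forall_mem_zpowers hγ, Nat.card_units, hL]
    have hdvd : q ^ ℓ - 1 ∣ q ^ r - 1 := by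
      rw [hm, pow_mul]
      have := Nat.sub_dvd_pow_sub_pow (q ^ ℓ) 1 m
      rwa [one_pow] at this
    obtain ⟨t, ht⟩ := hdvd
    have hqℓ : q < q ^ ℓ := by
      calc q = q ^ 1 := (pow_one q).symm
        _ < q ^ ℓ := Nat.pow_lt_pow_right hq1 (by omega)
    have hqr : 0 < q ^ r - 1 := by
      have : 1 < q ^ r := Nat.one_lt_pow (by omega) hq1
      omega
    have ht0 : t ≠ 0 := by rintro rfl; rw [mul_zero] at ht; omega
    have hoa : orderOf (γ ^ t) = q ^ ℓ - 1 := by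
      rw [orderOf_pow' _ ht0, ho, ht, Nat.gcd_eq_right (dvd_mul_left t _)]
      exact Nat.mul_div_cancel _ (Nat.pos_of_ne_zero ht0)
    refine ⟨((γ ^ t : Lˣ) : L), ?_, ?_⟩
    · rw [hE]
      have h1 : (γ ^ t) ^ (q ^ ℓ) = γ ^ t := by
        have h2 : q ^ ℓ = (q ^ ℓ - 1) + 1 := by omega
        rw [h2, pow_succ, ← hoa, pow_orderOf_eq_one, one_mul]
      exact congrArg Units.val h1
    · rw [hE1, pow_one]
      intro h
      have h1 : (γ ^ t) ^ q = γ ^ t := Units.ext h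
      have h2 : (γ ^ t) ^ (q - 1) = 1 := by
        have h3 : q = (q - 1) + 1 := by omega
        rw [h3, pow_succ] at h1
        simpa using h1
      have h4 := Nat.le_of_dvd (by omega) (orderOf_dvd_of_pow_eq_one h2)
      rw [hoa] at h4
      omega
  have hpowlt : ∀ (j : ℕ) (E' : Subfield L), Nat.card E' ≤ q ^ j → 2 * j < n → Nat.card E' ^ 2 < q ^ n := by
    intro j E' h1 h2
    calc Nat.card E' ^ 2 ≤ (q ^ j) ^ 2 := Nat.pow_le_pow_left h1 2
      _ = q ^ (j * 2) := by rw [← pow_mul]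
      _ < q ^ n := Nat.pow_lt_pow_right hq1 (by omega)
  obtain ⟨N1, hN1, _, hN1b⟩ := TV hn0 ρ E1 (hscal 1 E1 hE1) (hpowlt 1 E1 hcE1 (by omega)) a ha1
  obtain ⟨N2, hN2, hN2a, hN2b⟩ := TV hn0 ρ E (hscal ℓ E hE) (hpowlt ℓ E hcE (by omega)) x hx
  obtain ⟨g1, hg1, hg1i, hg1s⟩ := unip N1 hN1
  obtain ⟨g2, hg2, hg2i, hg2s⟩ := unip N2 hN2
  set S : Set (Matrix (Fin n) (Fin n) F) := {A | A ∈ K ∧ A ^ (q ^ ℓ) = A} with hS
  have hle : Cfsg.Geo.subalgebraNormalizer K ≤ setNorm S := by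
    intro g hg A
    have hgA := hg A
    have hpw : ((g : Matrix (Fin n) (Fin n) F) * A * ((g⁻¹ : GL (Fin n) F) : Matrix (Fin n) (Fin n) F)) ^ (q ^ ℓ) =
        (g : Matrix (Fin n) (Fin n) F) * A ^ (q ^ ℓ) * ((g⁻¹ : GL (Fin n) F) : Matrix (Fin n) (Fin n) F) :=
      Units.conj_pow g A _
    rw [hS, Set.mem_setOf_eq, Set.mem_setOf_eq, hpw, ← hgA]
    refine and_congr_right (fun _ => ⟨fun h => by rw [h], fun h => ?_⟩)
    have h1 := congrArg (fun B => ((g⁻¹ : GL (Fin n) F) : Matrix (Fin n) (Fin n) F) * B * (g : Matrix (Fin n) (Fin n) F)) h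
    have hgi : ((g⁻¹ : GL (Fin n) F) : Matrix (Fin n) (Fin n) F) * (g : Matrix (Fin n) (Fin n) F) = 1 := Units.inv_mul g
    have h2 : ∀ B : Matrix (Fin n) (Fin n) F, ((g⁻¹ : GL (Fin n) F) : Matrix (Fin n) (Fin n) F) * ((g : Matrix (Fin n) (Fin n) F) * B *
        ((g⁻¹ : GL (Fin n) F) : Matrix (Fin n) (Fin n) F)) * (g : Matrix (Fin n) (Fin n) F) = B := by
      intro B
      calc _ = (((g⁻¹ : GL (Fin n) F) : Matrix (Fin n) (Fin n) F) * (g : Matrix (Fin n) (Fin n) F)) * B *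
            (((g⁻¹ : GL (Fin n) F) : Matrix (Fin n) (Fin n) F) * (g : Matrix (Fin n) (Fin n) F)) := by noncomm_ring
        _ = B := by rw [hgi, one_mul, mul_one]
    simp only [h2] at h1
    exact h1
  have hg1n : g1 ∉ setNorm S := by
    intro h
    have haS : ρ a ∈ S := ⟨(hK _).2 ⟨a, rfl⟩, by rw [← map_pow, (hE a).1 haE]⟩
    have h1 := ((h (ρ a)).1 haS).1
    rw [hg1, hg1i] at h1
    obtain ⟨y, hy⟩ := (hK _).1 h1
    exact hN1b y hy.symm
  have hg2n : g2 ∉ Cfsg.Geo.subalgebraNormalizer K := by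
    intro h
    have h1 := (h (ρ x)).1 ((hK _).2 ⟨x, rfl⟩)
    rw [hg2, hg2i] at h1
    obtain ⟨y, hy⟩ := (hK _).1 h1
    exact hN2b y hy.symm
  have hg2m : g2 ∈ setNorm S := by
    have hc : ∀ A ∈ S, N2 * A = A * N2 := by
      rintro A ⟨hA1, hA2⟩
      obtain ⟨l, rfl⟩ := (hK A).1 hA1
      exact hN2a l ((hE l).2 (hρ (by rw [map_pow]; exact hA2)))
    have hcomm : ∀ A ∈ S, (1 + N2) * A * (1 - N2) = A := by
      intro A hA
      have h1 := hc A hA
      have h2 : (1 + N2) * A = A * (1 + N2) := by rw [add_mul, mul_add, h1, one_mul, mul_one]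
      rw [h2, mul_assoc]
      have : (1 + N2) * (1 - N2) = 1 - N2 * N2 := by noncomm_ring
      rw [this, hN2, sub_zero, mul_one]
    intro A
    rw [hg2, hg2i]
    constructor
    · intro hA; rw [hcomm A hA]; exact hA
    · intro hA
      have h1 := hc _ hA
      set B := (1 + N2) * A * (1 - N2) with hB
      have h2 : (1 - N2) * B * (1 + N2) = A := by
        have e1 : (1 - N2) * (1 + N2) = 1 := by
          have : (1 - N2) * (1 + N2) = 1 - N2 * N2 := by noncomm_ring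
          rw [this, hN2, sub_zero]
        calc (1 - N2) * B * (1 + N2) = ((1 - N2) * (1 + N2)) * A * ((1 - N2) * (1 + N2)) := by rw [hB]; noncomm_ring
          _ = A := by rw [e1, one_mul, mul_one]
      have h3 : (1 - N2) * B = B * (1 - N2) := by rw [sub_mul, mul_sub, h1, one_mul, mul_one]
      have h4 : A = B := by
        rw [← h2, h3, mul_assoc]
        have : (1 - N2) * (1 + N2) = 1 - N2 * N2 := by noncomm_ring
        rw [this, hN2, sub_zero, mul_one]
      rw [h4]; exact hA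
  constructor
  · intro hco
    have hlt' : Cfsg.Geo.subalgebraNormalizer K < setNorm S :=
      lt_of_le_of_ne hle (fun h => hg2n (h ▸ hg2m))
    have := hco.2 _ hlt'
    exact hg1n (this ▸ Subgroup.mem_top g1)
  · rintro ⟨_, hmax⟩
    rcases hmax (setNorm S ⊓ Cfsg.Geo.specialLinear (Fin n) F) (inf_le_inf_right _ hle) inf_le_right with h | h
    · have : g2 ∈ Cfsg.Geo.subalgebraNormalizer K ⊓ Cfsg.Geo.specialLinear (Fin n) F := h ▸ ⟨hg2m, hg2s⟩
      exact hg2n this.1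
    · have : g1 ∈ setNorm S ⊓ Cfsg.Geo.specialLinear (Fin n) F := by rw [h]; exact hg1s
      exact hg1n this.1

end Cfsg.Agent.H11.ExtF
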