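import Mathlib
import Cfsg.Agent.H11_J1H

set_option autoImplicit false
set_option maxRecDepth 100000

/-!
Groups with the same element orders as the fourth power of `J1`.
-/

namespace Cfsg.Agent.H11.J1

open Cfsg Cfsg.Agent.H11.KMat Subgroup

/-- the generalized dihedral group -/
@[ext] structure GD (A : Type) where
  v : A
  u : ℤˣ

variable {A : Type} [AddCommGroup A]

instance : Mul (GD A) := ⟨fun a b => ⟨a.v + a.u • b.v, a.u * b.u⟩⟩
instance : One (GD A) := ⟨⟨0, 1⟩⟩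
instance : Inv (GD A) := ⟨fun a => ⟨-(a.u⁻¹ • a.v), a.u⁻¹⟩⟩

theorem GD_mul (a b : GD A) : a * b = ⟨a.v + a.u • b.v, a.u * b.u⟩ := rfl
theorem GD_one : (1 : GD A) = ⟨0, 1⟩ := rfl
theorem GD_inv (a : GD A) : a⁻¹ = ⟨-(a.u⁻¹ • a.v), a.u⁻¹⟩ := rfl

instance : Group (GD A) := Group.ofLeftAxioms
  (fun a b c => by
    ext
    · show a.v + a.u • b.v + (a.u * b.u) • c.v = a.v + a.u • (b.v + b.u • c.v)
      rw [smul_add, mul_smul, add_assoc]
    · exact congrArg _ (mul_assoc a.u b.u c.u))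
  (fun a => by
    ext
    · show (0 : A) + (1 : ℤˣ) • a.v = a.v
      rw [one_smul, zero_add]
    · exact congrArg _ (one_mul a.u))
  (fun a => by
    ext
    · show -(a.u⁻¹ • a.v) + a.u⁻¹ • a.v = 0
      rw [neg_add_cancel]
    · exact congrArg _ (inv_mul_cancel a.u))

theorem GD_pow (x : A) (n : ℕ) : (⟨x, 1⟩ : GD A) ^ n = ⟨n • x, 1⟩ := by
  induction n with
  | zero => rw [pow_zero, zero_smul]; rfl
  | succ n ih =>
    rw [pow_succ, ih, GD_mul]
    simp only [one_smul, mul_one, succ_nsmul]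

theorem GD_sq (x : A) : (⟨x, -1⟩ : GD A) ^ 2 = 1 := by
  rw [pow_two, GD_mul, GD_one]
  simp only [Units.neg_smul, one_smul, add_neg_cancel, mul_neg, mul_one, neg_neg]

theorem GD_order {p : ℕ} (hp : p.Prime) (hA : ∀ x : A, p • x = 0) (z : GD A) :
    orderOf z = 1 ∨ orderOf z = 2 ∨ orderOf z = p := by
  obtain ⟨x, u⟩ := z
  rcases Int.units_eq_one_or u with rfl | rfl
  · have h1 : (⟨x, 1⟩ : GD A) ^ p = 1 := by rw [GD_pow, hA]; rfl
    rcases (Nat.dvd_prime hp).1 (orderOf_dvd_of_pow_eq_one h1) with h2 | h2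
    · exact Or.inl h2
    · exact Or.inr (Or.inr h2)
  · rcases (Nat.dvd_prime Nat.prime_two).1 (orderOf_dvd_of_pow_eq_one (GD_sq x)) with h2 | h2
    · exact Or.inl h2
    · exact Or.inr (Or.inl h2)

theorem GD_two : ∃ z : GD A, orderOf z = 2 := by
  have : Fact (Nat.Prime 2) := ⟨Nat.prime_two⟩
  refine ⟨⟨0, -1⟩, orderOf_eq_prime (GD_sq 0) ?_⟩
  intro h
  have h1 : (-1 : ℤˣ) = 1 := congrArg GD.u h
  exact absurd h1 (by decide)

theorem GD_p {p : ℕ} [hp : Fact p.Prime] (hA : ∀ x : A, p • x = 0) (x : A) (hx : x ≠ 0) :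
    ∃ z : GD A, orderOf z = p := by
  refine ⟨⟨x, 1⟩, orderOf_eq_prime ?_ ?_⟩
  · rw [GD_pow, hA]; rfl
  · intro h
    exact hx (congrArg GD.v h)

def GDequiv (A : Type) : GD A ≃ A × ℤˣ where
  toFun z := (z.v, z.u)
  invFun z := ⟨z.1, z.2⟩
  left_inv _ := rfl
  right_inv _ := rfl

abbrev A3 (k : ℕ) := Fin (k + 1) → ZMod 3

abbrev DD (k : ℕ) := GD (A3 k) × GD (ZMod 5)

theorem A3_smul (k : ℕ) (x : A3 k) : 3 • x = 0 := by
  ext i
  have : (3 : ZMod 3) = 0 := rfl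
  simp [this]

theorem Z5_smul (x : ZMod 5) : 5 • x = 0 := by
  have : (5 : ZMod 5) = 0 := rfl
  simp [this]

def S7 : Finset ℕ := {1, 2, 3, 5, 6, 10, 15}

theorem DD_sub (k : ℕ) (z : DD k) : orderOf z ∈ S7 := by
  rw [Prod.orderOf]
  rcases GD_order Nat.prime_three (A3_smul k) z.1 with h | h | h <;>
    rcases GD_order Nat.prime_five Z5_smul z.2 with h' | h' | h' <;> rw [h, h'] <;> decide

theorem one_ne3 : (1 : ZMod 3) ≠ 0 := by decide
theorem one_ne5 : (1 : ZMod 5) ≠ 0 := by decide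

theorem DD_sup (k : ℕ) (n : ℕ) (hn : n ∈ S7) : ∃ z : DD k, orderOf z = n := by
  have : Fact (Nat.Prime 3) := ⟨Nat.prime_three⟩
  have : Fact (Nat.Prime 5) := ⟨Nat.prime_five⟩
  obtain ⟨a2, ha2⟩ := GD_two (A := A3 k)
  obtain ⟨a3, ha3⟩ := GD_p (A3_smul k) (fun _ => 1) (by
    intro h
    exact one_ne3 (congrFun h 0))
  obtain ⟨b2, hb2⟩ := GD_two (A := ZMod 5)
  obtain ⟨b5, hb5⟩ := GD_p Z5_smul 1 one_ne5
  unfold S7 at hn
  simp only [Finset.mem_insert, Finset.mem_singleton] at hn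
  rcases hn with rfl | rfl | rfl | rfl | rfl | rfl | rfl
  · exact ⟨1, orderOf_one⟩
  · exact ⟨(a2, 1), by rw [Prod.orderOf, orderOf_one, ha2]; rfl⟩
  · exact ⟨(a3, 1), by rw [Prod.orderOf, orderOf_one, ha3]; rfl⟩
  · exact ⟨(1, b5), by rw [Prod.orderOf, orderOf_one, hb5]; rfl⟩
  · exact ⟨(a3, b2), by rw [Prod.orderOf, ha3, hb2]; rfl⟩
  · exact ⟨(a2, b5), by rw [Prod.orderOf, ha2, hb5]; rfl⟩
  · exact ⟨(a3, b5), by rw [Prod.orderOf, ha3, hb5]; rfl⟩

theorem ord_of (w : List ℕ) (n : ℕ) (hn : 0 < n) (h : ((lt2 (wpow w n) && lt2 []) && Nat.beq (wc PJ gs (wpow w n)) (wc PJ gs [])) = true)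
    (h2 : ∀ m < n, m ∣ n → m ≠ 0 → jw w ^ m ≠ 1) : orderOf (jw w) = n := by
  have h1 : jw w ^ n = 1 := by rw [← jw_pow]; exact jw_eq _ _ h
  have h3 := orderOf_dvd_of_pow_eq_one h1
  by_contra hne
  have h4 : orderOf (jw w) < n := lt_of_le_of_ne (Nat.le_of_dvd hn h3) hne
  exact h2 _ h4 h3 (orderOf_pos _).ne' (pow_orderOf_eq_one _)

theorem J1_sup (n : ℕ) (hn : n ∈ S7) : ∃ z : ↥Spor.J1, orderOf z = n := by
  have hne : ∀ (w : List ℕ) (m : ℕ), ((lt2 (wpow w m) && lt2 []) && !(Nat.beq (wc PJ gs (wpow w m)) (wc PJ gs []))) = true →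
      jw w ^ m ≠ 1 := by
    intro w m h
    rw [← jw_pow]; exact jw_ne _ _ h
  unfold S7 at hn
  simp only [Finset.mem_insert, Finset.mem_singleton] at hn
  rcases hn with rfl | rfl | rfl | rfl | rfl | rfl | rfl
  · exact ⟨1, orderOf_one⟩
  · exact ⟨_, o_t⟩
  · exact ⟨_, o_k⟩
  · exact ⟨_, o_f⟩
  · refine ⟨jw [1, 1, 1, 0], ord_of _ 6 (by norm_num) (by decide +kernel) ?_⟩
    intro m hm hd h0
    have : m = 1 ∨ m = 2 ∨ m = 3 := by
      have : ∀ m < 6, m ∣ 6 → m ≠ 0 → m = 1 ∨ m = 2 ∨ m = 3 := by decide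
      exact this m hm hd h0
    rcases this with rfl | rfl | rfl
    · exact hne _ _ (by decide +kernel)
    · exact hne _ _ (by decide +kernel)
    · exact hne _ _ (by decide +kernel)
  · refine ⟨jw [1, 0], ord_of _ 10 (by norm_num) (by decide +kernel) ?_⟩
    intro m hm hd h0
    have : m = 1 ∨ m = 2 ∨ m = 5 := by
      have : ∀ m < 10, m ∣ 10 → m ≠ 0 → m = 1 ∨ m = 2 ∨ m = 5 := by decide
      exact this m hm hd h0
    rcases this with rfl | rfl | rfl
    · exact hne _ _ (by decide +kernel)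
    · exact hne _ _ (by decide +kernel)
    · exact hne _ _ (by decide +kernel)
  · refine ⟨jw [1, 1, 0, 1, 0, 1, 1, 0, 0], ord_of _ 15 (by norm_num) (by decide +kernel) ?_⟩
    intro m hm hd h0
    have : m = 1 ∨ m = 3 ∨ m = 5 := by
      have : ∀ m < 15, m ∣ 15 → m ≠ 0 → m = 1 ∨ m = 3 ∨ m = 5 := by decide
      exact this m hm hd h0
    rcases this with rfl | rfl | rfl
    · exact hne _ _ (by decide +kernel)
    · exact hne _ _ (by decide +kernel)
    · exact hne _ _ (by decide +kernel)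

theorem ord4 {A B C D : Type*} [Group A] [Group B] [Group C] [Group D] (a : A) (b : B) (c : C) (d : D) :
    orderOf ((a, b, c, d) : A × B × C × D) =
      (orderOf a).lcm ((orderOf b).lcm ((orderOf c).lcm (orderOf d))) := by
  rw [Prod.orderOf, Prod.orderOf, Prod.orderOf]

theorem spec_eq (k : ℕ) : Set.range (orderOf : (↥Spor.J1 × ↥Spor.J1 × ↥Spor.J1 × DD k) → ℕ) =
    Set.range (orderOf : ↥Spor.J1 × ↥Spor.J1 × ↥Spor.J1 × ↥Spor.J1 → ℕ) := by
  apply Set.Subset.antisymm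
  · rintro _ ⟨⟨a, b, c, e⟩, rfl⟩
    obtain ⟨z, hz⟩ := J1_sup _ (DD_sub k e)
    exact ⟨(a, b, c, z), by rw [ord4, ord4, hz]⟩
  · rintro _ ⟨⟨a, b, c, d⟩, rfl⟩
    have hlc : ∀ x y z : ℕ, x.lcm (y.lcm z) = y.lcm (x.lcm z) := by
      intro x y z
      rw [← Nat.lcm_assoc, Nat.lcm_comm x y, Nat.lcm_assoc]
    have hdup : ∀ x z : ℕ, x.lcm (x.lcm z) = x.lcm z := by
      intro x z
      rw [← Nat.lcm_assoc, Nat.lcm_self]
    by_cases h1 : orderOf a ∈ S7
    · obtain ⟨e, he⟩ := DD_sup k _ h1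
      refine ⟨(b, c, d, e), ?_⟩
      rw [ord4, ord4, he, Nat.lcm_comm (orderOf d), hlc (orderOf c), hlc (orderOf b)]
    by_cases h2 : orderOf b ∈ S7
    · obtain ⟨e, he⟩ := DD_sup k _ h2
      refine ⟨(a, c, d, e), ?_⟩
      rw [ord4, ord4, he, Nat.lcm_comm (orderOf d), hlc (orderOf c)]
    by_cases h3 : orderOf c ∈ S7
    · obtain ⟨e, he⟩ := DD_sup k _ h3
      refine ⟨(a, b, d, e), ?_⟩
      rw [ord4, ord4, he, Nat.lcm_comm (orderOf d)]
    by_cases h4 : orderOf d ∈ S7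
    · obtain ⟨e, he⟩ := DD_sup k _ h4
      exact ⟨(a, b, c, e), by rw [ord4, ord4, he]⟩
    have hthree : ∀ x : ↥Spor.J1, orderOf x ∉ S7 → orderOf x = 7 ∨ orderOf x = 11 ∨ orderOf x = 19 := by
      intro x hx
      have := order_cases x
      simp only [Finset.mem_insert, Finset.mem_singleton] at this
      unfold S7 at hx
      simp only [Finset.mem_insert, Finset.mem_singleton] at hx
      omega
    have ha := hthree a h1
    have hb := hthree b h2
    have hc := hthree c h3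
    have hd := hthree d h4
    have h5 : orderOf a = orderOf b ∨ orderOf a = orderOf c ∨ orderOf a = orderOf d ∨ orderOf b = orderOf c ∨
        orderOf b = orderOf d ∨ orderOf c = orderOf d := by omega
    rcases h5 with h | h | h | h | h | h
    · refine ⟨(b, c, d, 1), ?_⟩
      rw [ord4, ord4, h, orderOf_one, Nat.lcm_one_right, hdup]
    · refine ⟨(b, c, d, 1), ?_⟩
      rw [ord4, ord4, h, orderOf_one, Nat.lcm_one_right, hlc (orderOf c) (orderOf b), hdup]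
    · refine ⟨(b, c, d, 1), ?_⟩
      rw [ord4, ord4, h, orderOf_one, Nat.lcm_one_right, hlc (orderOf d) (orderOf b), hlc (orderOf d) (orderOf c), Nat.lcm_self]
    · refine ⟨(a, c, d, 1), ?_⟩
      rw [ord4, ord4, h, orderOf_one, Nat.lcm_one_right, hdup]
    · refine ⟨(a, c, d, 1), ?_⟩
      rw [ord4, ord4, h, orderOf_one, Nat.lcm_one_right, hlc (orderOf d) (orderOf c), Nat.lcm_self]
    · refine ⟨(a, b, d, 1), ?_⟩
      rw [ord4, ord4, h, orderOf_one, Nat.lcm_one_right, Nat.lcm_self]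

theorem finite_GD (A : Type) [Finite A] : Finite (GD A) := Finite.of_equiv _ (GDequiv A).symm

theorem main4 (N : ℕ) : ∃ (H : Type) (_ : Group H) (_ : Fintype H), N < Fintype.card H ∧
      Set.range (orderOf : H → ℕ) = Set.range (orderOf : ↥Cfsg.Spor.J1 × ↥Cfsg.Spor.J1 × ↥Cfsg.Spor.J1 × ↥Cfsg.Spor.J1 → ℕ) := by
  classical
  have h1 : Finite (GD (A3 N)) := finite_GD _
  have h2 : Finite (GD (ZMod 5)) := finite_GD _
  have h3 : Finite (↥Spor.J1 × ↥Spor.J1 × ↥Spor.J1 × DD N) := inferInstance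
  let F := Fintype.ofFinite (↥Spor.J1 × ↥Spor.J1 × ↥Spor.J1 × DD N)
  refine ⟨↥Spor.J1 × ↥Spor.J1 × ↥Spor.J1 × DD N, inferInstance, F, ?_, spec_eq N⟩
  rw [← @Nat.card_eq_fintype_card _ F, Nat.card_prod, Nat.card_prod, Nat.card_prod, Nat.card_prod]
  have e1 : Nat.card (GD (A3 N)) = 3 ^ (N + 1) * 2 := by
    rw [Nat.card_congr (GDequiv (A3 N)), Nat.card_prod]
    simp
  have e2 : 0 < Nat.card (GD (ZMod 5)) := Nat.card_pos
  have e3 : 0 < Nat.card ↥Spor.J1 := Nat.card_pos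
  rw [e1]
  have e4 : N < 3 ^ (N + 1) := lt_of_lt_of_le (Nat.lt_pow_self (by norm_num) : N < 3 ^ N) (Nat.pow_le_pow_right (by norm_num) (by omega))
  calc N < 3 ^ (N + 1) := e4
    _ ≤ 3 ^ (N + 1) * 2 * Nat.card (GD (ZMod 5)) := by
        rw [mul_assoc]; exact Nat.le_mul_of_pos_right _ (by positivity)
    _ ≤ Nat.card ↥Spor.J1 * (Nat.card ↥Spor.J1 * (Nat.card ↥Spor.J1 * (3 ^ (N + 1) * 2 * Nat.card (GD (ZMod 5))))) := by
        refine le_trans ?_ (Nat.le_mul_of_pos_left _ e3)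
        refine le_trans ?_ (Nat.le_mul_of_pos_left _ e3)
        exact Nat.le_mul_of_pos_left _ e3

end Cfsg.Agent.H11.J1
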