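import Cfsg.Agent.H11_ThD2

set_option autoImplicit false
open Cfsg

/-!
Thompson's dihedral lemma: the dual family of eigenvectors.
-/

namespace Cfsg.Agent.H11.ThD

universe u

open Subgroup

variable {G : Type u} [Group G]

theorem exists_dual [Finite G] (F A : Subgroup G) (hFn : Group.IsNilpotent F)
    (hFodd : Odd (Nat.card F)) (hA : Cfsg.IsElementaryAbelian 2 A) (d : ℕ)
    (hAd : Nat.card ↥A = 2 ^ d) (hAF : A ≤ Subgroup.normalizer (F : Set G))
    (hfaith : A ⊓ Subgroup.centralizer (F : Set G) = ⊥) :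
    ∃ (a y : Fin d → G), (∀ i, a i ∈ A) ∧ (∀ i, y i ∈ F) ∧ (∀ i, y i ≠ 1) ∧
      (∀ i j, y i * y j = y j * y i) ∧
      (∀ i, ∀ b ∈ A, b * y i * b⁻¹ = y i ∨ b * y i * b⁻¹ = (y i)⁻¹) ∧
      (∀ i, a i * y i * (a i)⁻¹ = (y i)⁻¹) ∧ (∀ i j, i ≠ j → a i * y j * (a i)⁻¹ = y j) ∧
      A ≤ ⨆ i, zpowers (a i) := by
  classical
  have hA2 : ∀ a ∈ A, a * a = 1 := fun a ha => by rw [← pow_two]; exact hA.2 a ha
  have hAc : ∀ a ∈ A, ∀ b ∈ A, a * b = b * a := fun a ha b hb =>
    congrArg Subtype.val (hA.1.1.1 ⟨a, ha⟩ ⟨b, hb⟩)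
  have hcop : (Nat.card A).Coprime (Nat.card F) := by
    rw [hAd]
    apply Nat.Coprime.pow_left
    rw [Nat.coprime_two_left]
    exact hFodd
  obtain ⟨Y, hYF, hYc, hYA, hYself⟩ := exists_maxab A F hA2
    (fun a ha c hc => (Subgroup.mem_normalizer_iff.mp (hAF ha) c).mp hc) hFn
  have hAY : A ⊓ centralizer (Y : Set G) = ⊥ := by
    rw [eq_bot_iff, ← hfaith]
    refine le_inf inf_le_left ?_
    exact cent_of_selfcent hFn (inf_le_left.trans hAF) (hcop.coprime_dvd_left (card_dvd_of_le inf_le_left))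
      hYF hYself (inf_le_right : A ⊓ centralizer (Y : Set G) ≤ _)
  set E : Set G := {y | y ∈ Y ∧ ∀ a ∈ A, a * y * a⁻¹ = y ∨ a * y * a⁻¹ = y⁻¹} with hE
  have hoddY : ∀ y ∈ Y, y = y⁻¹ → y = 1 := by
    intro y hy h
    have h1 : y * y = 1 := by
      nth_rewrite 1 [h]; group
    have h2 : orderOf y ∣ 2 := orderOf_dvd_of_pow_eq_one (by rw [pow_two]; exact h1)
    have h3 : Odd (orderOf y) := hFodd.of_dvd_nat (Subgroup.orderOf_dvd_natCard _ (hYF hy))
    rcases (Nat.dvd_prime Nat.prime_two).mp h2 with h4 | h4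
    · exact orderOf_eq_one_iff.mp h4
    · rw [h4] at h3; exact absurd h3 (by decide)
  obtain ⟨a, y, haA, hyE, hy1, hinv, hcom, hgen⟩ := dual E (fun y hy => hoddY y hy.1) d A hAd hA2
    (fun a ha y hy => hy.2 a ha) (by
      intro b hb hb1
      -- the subgroup inverted by `b`
      let V : Subgroup G :=
        { carrier := {y | y ∈ Y ∧ b * y * b⁻¹ = y⁻¹}
          one_mem' := ⟨one_mem _, by group⟩
          mul_mem' := by
            rintro u v ⟨hu, hu'⟩ ⟨hv, hv'⟩
            refine ⟨mul_mem hu hv, ?_⟩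
            calc b * (u * v) * b⁻¹ = (b * u * b⁻¹) * (b * v * b⁻¹) := by group
              _ = u⁻¹ * v⁻¹ := by rw [hu', hv']
              _ = (v * u)⁻¹ := (mul_inv_rev v u).symm
              _ = (u * v)⁻¹ := by rw [hYc u hu v hv]
          inv_mem' := by
            rintro u ⟨hu, hu'⟩
            refine ⟨inv_mem hu, ?_⟩
            calc b * u⁻¹ * b⁻¹ = (b * u * b⁻¹)⁻¹ := by group
              _ = _ := by rw [hu'] }
      have hVmem : ∀ u, u ∈ V ↔ (u ∈ Y ∧ b * u * b⁻¹ = u⁻¹) := fun u => Iff.rfl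
      have hbi : b⁻¹ = b := inv_eq_of_mul_eq_one_left (hA2 b hb)
      have hVne : V ≠ ⊥ := by
        intro hbot
        apply hb1
        rw [← mem_bot, ← hAY]
        refine ⟨hb, mem_centralizer_iff.mpr ?_⟩
        intro u hu
        have h1 : u⁻¹ * (b * u * b⁻¹) ∈ V := by
          rw [hVmem]
          refine ⟨mul_mem (inv_mem hu) (hYA b hb u hu), ?_⟩
          calc b * (u⁻¹ * (b * u * b⁻¹)) * b⁻¹ = (b * u * b⁻¹)⁻¹ * ((b * b) * u * (b * b)⁻¹) := by group
            _ = _ := by rw [hA2 b hb]; group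
        rw [hbot, mem_bot] at h1
        have h2 := inv_mul_eq_one.mp h1
        have h3 := mul_inv_eq_iff_eq_mul.mp h2.symm
        exact h3.symm
      obtain ⟨v, hvV, hv1, hve⟩ := eig A V hA2 (fun u hu w hw => hYc u hu.1 w hw.1) (by
        intro c hc u hu
        rw [hVmem] at hu ⊢
        refine ⟨hYA c hc u hu.1, ?_⟩
        calc b * (c * u * c⁻¹) * b⁻¹ = (b * c) * u * (b * c)⁻¹ := by group
          _ = (c * b) * u * (c * b)⁻¹ := by rw [hAc b hb c hc]
          _ = c * (b * u * b⁻¹) * c⁻¹ := by group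
          _ = _ := by rw [hu.2]; group) hVne
      refine ⟨v, ⟨hvV.1, hve⟩, ?_⟩
      rw [hvV.2]
      intro h
      exact hv1 (hoddY v hvV.1 h.symm))
  exact ⟨a, y, haA, fun i => hYF (hyE i).1, hy1, fun i j => hYc _ (hyE i).1 _ (hyE j).1,
    fun i => (hyE i).2, hinv, hcom, hgen⟩

theorem faithful_dual [Finite G] {A : Subgroup G} (hA2 : ∀ a ∈ A, a * a = 1) {d : ℕ}
    (hAd : Nat.card A = 2 ^ d) {a y : Fin d → G} (haA : ∀ i, a i ∈ A) (hodd : ∀ i, y i ≠ (y i)⁻¹)
    (hinv : ∀ i, a i * y i * (a i)⁻¹ = (y i)⁻¹) (hcom : ∀ i j, i ≠ j → a i * y j * (a i)⁻¹ = y j)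
    {b : G} (hb : b ∈ A) (hby : ∀ i, b * y i * b⁻¹ = y i) : b = 1 := by
  classical
  have hsub : ∀ S : Finset (Fin d), ∃ c ∈ A, ∀ i, (i ∈ S → c * y i * c⁻¹ = (y i)⁻¹) ∧
      (i ∉ S → c * y i * c⁻¹ = y i) := by
    intro S
    induction S using Finset.induction_on with
    | empty => exact ⟨1, one_mem _, fun i => ⟨fun h => absurd h (Finset.notMem_empty i), fun _ => by group⟩⟩
    | insert j S hj ihS =>
      obtain ⟨c, hc, hcS⟩ := ihS
      refine ⟨c * a j, mul_mem hc (haA j), fun i => ?_⟩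
      have h0 : c * a j * y i * (c * a j)⁻¹ = c * (a j * y i * (a j)⁻¹) * c⁻¹ := by group
      constructor
      · intro h
        rw [h0]
        rcases Finset.mem_insert.mp h with h | h
        · subst h
          rw [hinv i]
          have h1 := (hcS i).2 hj
          calc c * (y i)⁻¹ * c⁻¹ = (c * y i * c⁻¹)⁻¹ := by group
            _ = _ := by rw [h1]
        · have hij : j ≠ i := fun h' => hj (h' ▸ h)
          rw [hcom j i hij]
          exact (hcS i).1 h
      · intro h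
        rw [Finset.mem_insert, not_or] at h
        rw [h0, hcom j i (fun h' => h.1 h'.symm)]
        exact (hcS i).2 h.2
  let f : A → Finset (Fin d) := fun c => Finset.univ.filter (fun i => (c : G) * y i * (c : G)⁻¹ = (y i)⁻¹)
  have hf : Function.Surjective f := by
    intro S
    obtain ⟨c, hc, hcS⟩ := hsub S
    refine ⟨⟨c, hc⟩, ?_⟩
    ext i
    simp only [f, Finset.mem_filter, Finset.mem_univ, true_and]
    constructor
    · intro h
      by_contra hi
      rw [(hcS i).2 hi] at h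
      exact hodd i h
    · exact (hcS i).1
  have hcard : Nat.card A = Nat.card (Finset (Fin d)) := by
    rw [hAd, Nat.card_eq_fintype_card, Fintype.card_finset, Fintype.card_fin]
  have hbij := (Nat.bijective_iff_surjective_and_card f).mpr ⟨hf, hcard⟩
  have h1 : f ⟨b, hb⟩ = f 1 := by
    ext i
    simp only [f, Finset.mem_filter, Finset.mem_univ, true_and]
    rw [hby i]
    simp
  exact congrArg Subtype.val (hbij.1 h1)

end Cfsg.Agent.H11.ThD
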