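import Mathlib

set_option autoImplicit false

/-!
Three primes in `(n, 2n]` for large `n`; two primes at distance at least 4 in `(m/2, m]`.
-/

namespace Cfsg.Agent.H11.Three

open Nat

/-- primes in `(n, 2n]` -/
def T (n : ℕ) : Finset ℕ := {p ∈ Finset.Ioc n (2 * n) | p.Prime}

theorem centralBinom_le (n : ℕ) (n_large : 2 < n) :
    centralBinom n ≤ (2 * n) ^ sqrt (2 * n) * 4 ^ (2 * n / 3) * (2 * n) ^ (T n).card := by
  have n_pos : 0 < n := (Nat.zero_le _).trans_lt n_large
  have n2_pos : 1 ≤ 2 * n := mul_pos (zero_lt_two' ℕ) n_pos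
  let f x := x ^ n.centralBinom.factorization x
  have hall : ∏ x ∈ Finset.range (2 * n + 1), f x = centralBinom n :=
    n.prod_pow_factorization_centralBinom
  have hsplit : ∏ x ∈ Finset.range (2 * n + 1), f x =
      (∏ x ∈ Finset.range (2 * n / 3 + 1), f x) * ∏ x ∈ T n, f x := by
    have hle : 2 * n / 3 + 1 ≤ 2 * n + 1 := by omega
    have h1 : ∏ x ∈ T n, f x = ∏ x ∈ Finset.Ico (2 * n / 3 + 1) (2 * n + 1), f x := by
      apply Finset.prod_subset
      · intro x hx
        rw [T, Finset.mem_filter, Finset.mem_Ioc] at hx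
        rw [Finset.mem_Ico]
        omega
      · intro x hx hxT
        rw [Finset.mem_Ico] at hx
        by_cases hpr : x.Prime
        · have hxn : x ≤ n := by
            by_contra hcon
            apply hxT
            rw [T, Finset.mem_filter, Finset.mem_Ioc]
            exact ⟨by omega, hpr⟩
          change x ^ _ = 1
          rw [factorization_centralBinom_of_two_mul_self_lt_three_mul n_large hxn (by omega), Nat.pow_zero]
        · change x ^ _ = 1
          rw [factorization_eq_zero_of_not_prime n.centralBinom hpr, Nat.pow_zero]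
    rw [h1, Finset.range_eq_Ico, Finset.range_eq_Ico]
    exact (Finset.prod_Ico_consecutive f (by omega) hle).symm
  rw [← hall, hsplit]
  apply mul_le_mul'
  · let S := {p ∈ Finset.range (2 * n / 3 + 1) | Nat.Prime p}
    have : ∏ x ∈ S, f x = ∏ x ∈ Finset.range (2 * n / 3 + 1), f x := by
      refine Finset.prod_filter_of_ne fun p _ h => ?_
      contrapose h; dsimp only [f]
      rw [factorization_eq_zero_of_not_prime n.centralBinom h, _root_.pow_zero]
    rw [← this, ← Finset.prod_filter_mul_prod_filter_not S (· ≤ sqrt (2 * n))]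
    apply mul_le_mul'
    · refine (Finset.prod_le_prod' fun p _ => (?_ : f p ≤ 2 * n)).trans ?_
      · exact pow_factorization_choose_le (mul_pos two_pos n_pos)
      have : (Finset.Icc 1 (sqrt (2 * n))).card = sqrt (2 * n) := by rw [card_Icc, Nat.add_sub_cancel]
      rw [Finset.prod_const]
      refine pow_right_mono₀ n2_pos ((Finset.card_le_card fun x hx => ?_).trans this.le)
      obtain ⟨h1, h2⟩ := Finset.mem_filter.1 hx
      exact Finset.mem_Icc.mpr ⟨(Finset.mem_filter.1 h1).2.one_lt.le, h2⟩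
    · refine le_trans ?_ (primorial_le_four_pow (2 * n / 3))
      refine (Finset.prod_le_prod' fun p hp => (?_ : f p ≤ p)).trans ?_
      · obtain ⟨h1, h2⟩ := Finset.mem_filter.1 hp
        refine (pow_right_mono₀ (Finset.mem_filter.1 h1).2.one_lt.le ?_).trans (pow_one p).le
        exact Nat.factorization_choose_le_one (sqrt_lt'.mp <| not_le.1 h2)
      refine Finset.prod_le_prod_of_subset_of_one_le' (Finset.filter_subset _ _) ?_
      exact fun p hp _ => (Finset.mem_filter.1 hp).2.one_lt.le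
  · refine (Finset.prod_le_prod' fun p _ => (?_ : f p ≤ 2 * n)).trans ?_
    · exact pow_factorization_choose_le (mul_pos two_pos n_pos)
    rw [Finset.prod_const]

theorem ineq_pow (j : ℕ) (hj : 7 ≤ j) : 3 * ((2 * j + 2) * (2 ^ (j + 1) + 2)) ≤ 4 ^ j := by
  induction j, hj using Nat.le_induction with
  | base => norm_num
  | succ j hj ih =>
    have h1 : (2 * (j + 1) + 2) * (2 ^ (j + 1 + 1) + 2) ≤ 4 * ((2 * j + 2) * (2 ^ (j + 1) + 2)) := by
      have h2 : 2 * (j + 1) + 2 ≤ 2 * (2 * j + 2) := by omega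
      have h3 : 2 ^ (j + 1 + 1) + 2 ≤ 2 * (2 ^ (j + 1) + 2) := by rw [pow_succ 2 (j + 1)]; omega
      calc _ ≤ (2 * (2 * j + 2)) * (2 * (2 ^ (j + 1) + 2)) := Nat.mul_le_mul h2 h3
        _ = _ := by ring
    calc _ ≤ 3 * (4 * ((2 * j + 2) * (2 ^ (j + 1) + 2))) := Nat.mul_le_mul_left _ h1
      _ = 4 * (3 * ((2 * j + 2) * (2 ^ (j + 1) + 2))) := by ring
      _ ≤ 4 * 4 ^ j := Nat.mul_le_mul_left _ ih
      _ = 4 ^ (j + 1) := by rw [pow_succ]; ring

theorem main_ineq (n : ℕ) (hn : 8192 ≤ n) :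
    n * ((2 * n) ^ sqrt (2 * n) * 4 ^ (2 * n / 3) * (2 * n) ^ 2) ≤ 4 ^ n := by
  set N := 2 * n with hN
  -- choose `j`
  set j := Nat.log 4 N with hj
  have hNpos : N ≠ 0 := by omega
  have h1 : 4 ^ j ≤ N := Nat.pow_log_le_self 4 hNpos
  have h2 : N < 4 ^ (j + 1) := Nat.lt_pow_succ_log_self (by norm_num) N
  have hj7 : 7 ≤ j := by
    rw [hj]
    exact Nat.le_log_of_pow_le (by norm_num) (by rw [hN]; norm_num; omega)
  have hs : sqrt N < 2 ^ (j + 1) := by
    rw [Nat.sqrt_lt']
    calc N < 4 ^ (j + 1) := h2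
      _ = (2 ^ (j + 1)) ^ 2 := by rw [← pow_mul, mul_comm, pow_mul]; norm_num
  have hN2 : N ≤ 2 ^ (2 * j + 2) := by
    calc N ≤ 4 ^ (j + 1) := h2.le
      _ = 2 ^ (2 * j + 2) := by rw [show 2 * j + 2 = 2 * (j + 1) by ring, pow_mul]; norm_num
  have h3 : n * (N ^ sqrt N * 4 ^ (N / 3) * N ^ 2) ≤ N ^ (sqrt N + 3) * 4 ^ (N / 3) := by
    calc n * (N ^ sqrt N * 4 ^ (N / 3) * N ^ 2) ≤ N * (N ^ sqrt N * 4 ^ (N / 3) * N ^ 2) :=
          Nat.mul_le_mul_right _ (by omega)
      _ = N ^ (sqrt N + 3) * 4 ^ (N / 3) := by ring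
  refine h3.trans ?_
  have h4 : N ^ (sqrt N + 3) ≤ 2 ^ ((2 * j + 2) * (2 ^ (j + 1) + 2)) := by
    calc N ^ (sqrt N + 3) ≤ (2 ^ (2 * j + 2)) ^ (sqrt N + 3) := Nat.pow_le_pow_left hN2 _
      _ ≤ (2 ^ (2 * j + 2)) ^ (2 ^ (j + 1) + 2) := Nat.pow_le_pow_right (by positivity) (by omega)
      _ = _ := by rw [← pow_mul]
  have h5 : (4 : ℕ) ^ (N / 3) = 2 ^ (2 * (N / 3)) := by rw [pow_mul]; norm_num
  have h6 : (4 : ℕ) ^ n = 2 ^ N := by rw [hN, pow_mul]; norm_num
  rw [h5, h6]
  calc _ ≤ 2 ^ ((2 * j + 2) * (2 ^ (j + 1) + 2)) * 2 ^ (2 * (N / 3)) := Nat.mul_le_mul_right _ h4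
    _ = 2 ^ ((2 * j + 2) * (2 ^ (j + 1) + 2) + 2 * (N / 3)) := by rw [← pow_add]
    _ ≤ 2 ^ N := by
      apply Nat.pow_le_pow_right (by norm_num)
      have := ineq_pow j hj7
      omega

theorem three_le_card (n : ℕ) (hn : 8192 ≤ n) : 3 ≤ (T n).card := by
  by_contra hcon
  have h1 := Nat.four_pow_lt_mul_centralBinom n (by omega)
  have h2 := centralBinom_le n (by omega)
  have h3 := main_ineq n hn
  have h4 : (2 * n) ^ (T n).card ≤ (2 * n) ^ 2 := Nat.pow_le_pow_right (by omega) (by omega)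
  have h5 : n * centralBinom n ≤ 4 ^ n := by
    calc n * centralBinom n ≤ n * ((2 * n) ^ sqrt (2 * n) * 4 ^ (2 * n / 3) * (2 * n) ^ (T n).card) :=
          Nat.mul_le_mul_left _ h2
      _ ≤ n * ((2 * n) ^ sqrt (2 * n) * 4 ^ (2 * n / 3) * (2 * n) ^ 2) := by
          apply Nat.mul_le_mul_left
          exact Nat.mul_le_mul_left _ h4
      _ ≤ 4 ^ n := h3
  omega

theorem exists_large (m : ℕ) (hm : 16384 ≤ m) :
    ∃ p q : ℕ, p.Prime ∧ q.Prime ∧ m < 2 * p ∧ p + 4 ≤ q ∧ q ≤ m := by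
  set n := m / 2 with hn
  have h3 := three_le_card n (by omega)
  have hne : (T n).Nonempty := Finset.card_pos.mp (by omega)
  set p := (T n).min' hne with hp
  set q := (T n).max' hne with hq
  have hex : ∃ r ∈ T n, r ≠ p ∧ r ≠ q := by
    by_contra hcon
    push Not at hcon
    have h4 : T n ⊆ {p, q} := by
      intro r hr
      by_cases hrp : r = p
      · simp [hrp]
      · simp [hcon r hr hrp]
    have h5 := Finset.card_le_card h4
    have h6 : ({p, q} : Finset ℕ).card ≤ 2 := Finset.card_le_two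
    omega
  obtain ⟨r, hr, hrp, hrq⟩ := hex
  have hpm : p ∈ T n := Finset.min'_mem _ _
  have hqm : q ∈ T n := Finset.max'_mem _ _
  have h7 : p ≤ r := Finset.min'_le _ _ hr
  have h8 : r ≤ q := Finset.le_max' _ _ hr
  rw [T, Finset.mem_filter, Finset.mem_Ioc] at hpm hqm hr
  have o1 := (hpm.2.eq_two_or_odd)
  have o2 := (hqm.2.eq_two_or_odd)
  have o3 := (hr.2.eq_two_or_odd)
  exact ⟨p, q, hpm.2, hqm.2, by omega, by omega, by omega⟩

theorem exists_pair (m : ℕ) (hm : 17 ≤ m) :
    ∃ p q : ℕ, p.Prime ∧ q.Prime ∧ m < 2 * p ∧ p + 4 ≤ q ∧ q ≤ m := by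
  rcases lt_or_ge m 26 with h | h
  · exact ⟨13, 17, by norm_num, by norm_num, by omega, by omega, by omega⟩
  rcases lt_or_ge m 38 with h | h
  · exact ⟨19, 23, by norm_num, by norm_num, by omega, by omega, by omega⟩
  rcases lt_or_ge m 62 with h | h
  · exact ⟨31, 37, by norm_num, by norm_num, by omega, by omega, by omega⟩
  rcases lt_or_ge m 106 with h | h
  · exact ⟨53, 61, by norm_num, by norm_num, by omega, by omega, by omega⟩
  rcases lt_or_ge m 194 with h | h
  · exact ⟨97, 103, by norm_num, by norm_num, by omega, by omega, by omega⟩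
  rcases lt_or_ge m 362 with h | h
  · exact ⟨181, 193, by norm_num, by norm_num, by omega, by omega, by omega⟩
  rcases lt_or_ge m 706 with h | h
  · exact ⟨353, 359, by norm_num, by norm_num, by omega, by omega, by omega⟩
  rcases lt_or_ge m 1382 with h | h
  · exact ⟨691, 701, by norm_num, by norm_num, by omega, by omega, by omega⟩
  rcases lt_or_ge m 2746 with h | h
  · exact ⟨1373, 1381, by norm_num, by norm_num, by omega, by omega, by omega⟩
  rcases lt_or_ge m 5462 with h | h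
  · exact ⟨2731, 2741, by norm_num, by norm_num, by omega, by omega, by omega⟩
  rcases lt_or_ge m 10886 with h | h
  · exact ⟨5443, 5449, by norm_num, by norm_num, by omega, by omega, by omega⟩
  rcases lt_or_ge m 21734 with h | h
  · exact ⟨10867, 10883, by norm_num, by norm_num, by omega, by omega, by omega⟩
  exact exists_large m (by omega)

end Cfsg.Agent.H11.Three
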