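import Mathlib

set_option autoImplicit false

/-!
An abstract criterion for the absence of 2-transitive actions, for a group of order `17971200`.
-/

namespace Cfsg.Agent.H11.Tits

open MulAction

section

variable {T : Type*} [Group T] [Finite T] {Ω : Type*} [Fintype Ω] [MulAction T Ω]

/-- the number of fixed points -/
noncomputable def fx (Ω : Type*) [MulAction T Ω] (g : T) : ℕ := Nat.card (fixedBy Ω g)

theorem fx_conj {a b : T} (h : IsConj a b) : fx Ω a = fx Ω b := by
  obtain ⟨c, hc⟩ := isConj_iff.1 h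
  unfold fx
  refine Nat.card_congr
    { toFun := fun x => ⟨c • x.1, ?_⟩
      invFun := fun x => ⟨c⁻¹ • x.1, ?_⟩
      left_inv := fun x => Subtype.ext (by simp)
      right_inv := fun x => Subtype.ext (by simp) }
  · have hx : a • x.1 = x.1 := x.2
    show b • c • x.1 = c • x.1
    rw [← hc, smul_smul, inv_mul_cancel_right, mul_smul, hx]
  · have hx : b • x.1 = x.1 := x.2
    show a • c⁻¹ • x.1 = c⁻¹ • x.1
    have e : a * c⁻¹ = c⁻¹ * b := by rw [← hc]; group
    rw [smul_smul, e, mul_smul, hx]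

theorem fx_le (g : T) : fx Ω g ≤ Fintype.card Ω := by
  unfold fx
  rw [← Nat.card_eq_fintype_card]
  exact Nat.card_le_card_of_injective (fun x : fixedBy Ω g => x.1) Subtype.val_injective

theorem fx_lt [FaithfulSMul T Ω] {g : T} (hg : g ≠ 1) : fx Ω g < Fintype.card Ω := by
  refine lt_of_le_of_ne (fx_le g) fun h => hg ?_
  unfold fx at h
  rw [← Nat.card_eq_fintype_card] at h
  have h1 : Function.Surjective (fun x : fixedBy Ω g => x.1) :=
    ((Nat.bijective_iff_injective_and_card _).2 ⟨Subtype.val_injective, h⟩).2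
  apply FaithfulSMul.eq_of_smul_eq_smul (α := Ω)
  intro a
  obtain ⟨x, hx⟩ := h1 a
  rw [one_smul, ← hx]
  exact x.2

/-- orbit counting, all nonidentity elements with the same number of fixed points -/
theorem burn (K : Subgroup T) {f : ℕ} (hK : ∀ g ∈ K, g ≠ 1 → fx Ω g = f) :
    ∃ m, Fintype.card Ω + (Nat.card K - 1) * f = m * Nat.card K := by
  classical
  have := Fintype.ofFinite ↥K
  have h := sum_card_fixedBy_eq_card_orbits_mul_card_group (↥K) Ω
  rw [← Nat.card_eq_fintype_card (α := ↥K)] at h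
  refine ⟨_, Eq.trans ?_ h⟩
  rw [← Finset.add_sum_erase Finset.univ _ (Finset.mem_univ (1 : ↥K))]
  congr 1
  · apply Fintype.card_congr
    exact ((Equiv.subtypeUnivEquiv (fun x => by show (1 : ↥K) • x = x; rw [one_smul])).symm)
  · have h1 : ∀ a ∈ Finset.univ.erase (1 : ↥K), Fintype.card (fixedBy Ω a) = f := by
      intro a ha
      rw [← hK a.1 a.2 (fun e => (Finset.mem_erase.1 ha).1 (Subtype.ext e))]
      unfold fx
      rw [Nat.card_eq_fintype_card]
      exact Fintype.card_congr (Equiv.refl _)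
    rw [Finset.sum_congr rfl h1, Finset.sum_const, Finset.card_erase_of_mem (Finset.mem_univ _), Finset.card_univ,
      smul_eq_mul, Nat.card_eq_fintype_card]

theorem burn_mod (K : Subgroup T) {f : ℕ} (hK : ∀ g ∈ K, g ≠ 1 → fx Ω g = f) :
    (Nat.card K : ℤ) ∣ (Fintype.card Ω : ℤ) - f := by
  obtain ⟨m, hm⟩ := burn K hK
  have hpos : 0 < Nat.card K := Nat.card_pos
  refine ⟨m - f, ?_⟩
  have h1 : ((Fintype.card Ω + (Nat.card K - 1) * f : ℕ) : ℤ) = ((m * Nat.card K : ℕ) : ℤ) := by rw [hm]
  push_cast [Nat.cast_sub (Nat.succ_le_of_lt hpos)] at h1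
  linarith

end

section Heis

variable {T : Type*} [Group T]

theorem heis_comm {x y z : T} (hz : z ^ 3 = 1) (hxz : x * z = z * x) (hyz : y * z = z * y)
    (hxy : x * y = z * (y * x)) (i j : ℕ) : y ^ j * x ^ i = x ^ i * y ^ j * z ^ (2 * i * j) := by
  have czx : Commute z x := hxz.symm
  have czy : Commute z y := hyz.symm
  have h1 : y * x = x * y * z ^ 2 := by
    have e : z ^ 2 * z = 1 := by rw [← pow_succ, hz]
    have : z ^ 2 * (x * y) = y * x := by rw [hxy, ← mul_assoc, e, one_mul]
    rw [← this]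
    exact ((czx.mul_right czy).pow_left 2).eq
  have h2 : ∀ j : ℕ, y ^ j * x = x * y ^ j * z ^ (2 * j) := by
    intro j
    induction j with
    | zero => simp
    | succ j ih =>
      rw [pow_succ', mul_assoc, ih, mul_assoc x, ← mul_assoc y, h1]
      have e : x * y * z ^ 2 * (y ^ j * z ^ (2 * j)) = x * y * (z ^ 2 * y ^ j) * z ^ (2 * j) := by group
      rw [e, ((czy.pow_left 2).pow_right j).eq]
      have e2 : 2 * (j + 1) = 2 + 2 * j := by ring
      rw [e2, pow_add z]
      group
  induction i with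
  | zero => simp
  | succ i ih =>
    rw [pow_succ, ← mul_assoc, ih]
    have e : x ^ i * y ^ j * z ^ (2 * i * j) * x = x ^ i * y ^ j * (z ^ (2 * i * j) * x) := by group
    rw [e, (czx.pow_left _).eq]
    have e2 : x ^ i * y ^ j * (x * z ^ (2 * i * j)) = x ^ i * (y ^ j * x) * z ^ (2 * i * j) := by group
    rw [e2, h2]
    have e3 : 2 * (i + 1) * j = 2 * j + 2 * i * j := by ring
    rw [e3, pow_add z]
    group

theorem heis_mul {x y z : T} (hz : z ^ 3 = 1) (hxz : x * z = z * x) (hyz : y * z = z * y)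
    (hxy : x * y = z * (y * x)) (i j k i' j' k' : ℕ) :
    x ^ i * y ^ j * z ^ k * (x ^ i' * y ^ j' * z ^ k') =
      x ^ (i + i') * y ^ (j + j') * z ^ (k + k' + 2 * i' * j) := by
  have czx : Commute z x := hxz.symm
  have czy : Commute z y := hyz.symm
  have e : x ^ i * y ^ j * z ^ k * (x ^ i' * y ^ j' * z ^ k') =
      x ^ i * y ^ j * (z ^ k * x ^ i') * y ^ j' * z ^ k' := by group
  rw [e, ((czx.pow_left k).pow_right i').eq]
  have e2 : x ^ i * y ^ j * (x ^ i' * z ^ k) * y ^ j' * z ^ k' =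
      x ^ i * (y ^ j * x ^ i') * (z ^ k * y ^ j') * z ^ k' := by group
  rw [e2, heis_comm hz hxz hyz hxy, ((czy.pow_left k).pow_right j').eq]
  have e3 : x ^ i * (x ^ i' * y ^ j * z ^ (2 * i' * j)) * (y ^ j' * z ^ k) * z ^ k' =
      x ^ i * x ^ i' * y ^ j * (z ^ (2 * i' * j) * y ^ j') * z ^ k * z ^ k' := by group
  rw [e3, ((czy.pow_left _).pow_right j').eq, pow_add x, pow_add y, pow_add z, pow_add z]
  have e4 : x ^ i * x ^ i' * y ^ j * (y ^ j' * z ^ (2 * i' * j)) * z ^ k * z ^ k' =
      x ^ i * x ^ i' * (y ^ j * y ^ j') * (z ^ (2 * i' * j) * z ^ k * z ^ k') := by group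
  rw [e4]
  congr 1
  rw [mul_assoc]
  repeat rw [← pow_add]
  congr 1
  ring

theorem pow_mod_of {x : T} {n : ℕ} (hx : x ^ n = 1) (i : ℕ) : x ^ i = x ^ (i % n) := by
  conv_lhs => rw [← Nat.div_add_mod i n]
  rw [pow_add, pow_mul, hx, one_pow, one_mul]

/-- the subgroup generated by `x, y, z` -/
theorem heis_subgroup [Finite T] {x y z : T} (hx : x ^ 3 = 1) (hy : y ^ 3 = 1) (hz : z ^ 3 = 1) (hxz : x * z = z * x)
    (hyz : y * z = z * y) (hxy : x * y = z * (y * x)) (Q : T → Prop) (hQ1 : ¬ Q 1)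
    (hQ : ∀ i < 3, ∀ j < 3, ∀ k < 3, (i ≠ 0 ∨ j ≠ 0 ∨ k ≠ 0) → Q (x ^ i * y ^ j * z ^ k)) :
    ∃ K : Subgroup T, Nat.card K = 27 ∧ ∀ g ∈ K, g ≠ 1 → Q g := by
  let M : Submonoid T :=
    { carrier := {g | ∃ i j k : ℕ, g = x ^ i * y ^ j * z ^ k}
      one_mem' := ⟨0, 0, 0, by simp⟩
      mul_mem' := by
        rintro a b ⟨i, j, k, rfl⟩ ⟨i', j', k', rfl⟩
        exact ⟨_, _, _, heis_mul hz hxz hyz hxy i j k i' j' k'⟩ }
  have hinv : ∀ {g : T}, g ∈ M → g⁻¹ ∈ M := by
    intro g hg
    have h1 : g⁻¹ = g ^ (orderOf g - 1) := by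
      rw [inv_eq_iff_mul_eq_one, ← pow_succ', Nat.sub_add_cancel (orderOf_pos g), pow_orderOf_eq_one]
    rw [h1]
    exact pow_mem hg _
  let K : Subgroup T := { M with inv_mem' := hinv }
  have hred : ∀ g ∈ K, ∃ i < 3, ∃ j < 3, ∃ k < 3, g = x ^ i * y ^ j * z ^ k := by
    rintro g ⟨i, j, k, rfl⟩
    refine ⟨i % 3, Nat.mod_lt _ (by norm_num), j % 3, Nat.mod_lt _ (by norm_num), k % 3, Nat.mod_lt _ (by norm_num), ?_⟩
    rw [← pow_mod_of hx, ← pow_mod_of hy, ← pow_mod_of hz]
  have hone : ∀ i j k : ℕ, x ^ i * y ^ j * z ^ k = 1 → i % 3 = 0 ∧ j % 3 = 0 ∧ k % 3 = 0 := by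
    intro i j k h
    by_contra hc
    apply hQ1
    rw [← h, pow_mod_of hx i, pow_mod_of hy j, pow_mod_of hz k]
    refine hQ _ (Nat.mod_lt _ (by norm_num)) _ (Nat.mod_lt _ (by norm_num)) _ (Nat.mod_lt _ (by norm_num)) ?_
    by_contra hc2
    push Not at hc2
    exact hc hc2
  refine ⟨K, ?_, ?_⟩
  · let F : Fin 3 × Fin 3 × Fin 3 → ↥K := fun p => ⟨x ^ p.1.val * y ^ p.2.1.val * z ^ p.2.2.val, _, _, _, rfl⟩
    have hF : Function.Bijective F := by
      constructor
      · rintro ⟨i, j, k⟩ ⟨i', j', k'⟩ h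
        have h1 : x ^ i.val * y ^ j.val * z ^ k.val = x ^ i'.val * y ^ j'.val * z ^ k'.val := congrArg Subtype.val h
        -- inverse of the right hand side on the left
        have h2 : x ^ (3 - i'.val + i.val) * y ^ j.val * z ^ k.val = y ^ j'.val * z ^ k'.val := by
          have e : x ^ (3 - i'.val) * x ^ i'.val = 1 := by
            rw [← pow_add, Nat.sub_add_cancel (by omega), hx]
          rw [pow_add, mul_assoc, mul_assoc, ← mul_assoc (x ^ i.val), h1, ← mul_assoc, ← mul_assoc, e, one_mul]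
        have czy : Commute z y := hyz.symm
        have h3 : x ^ (3 - i'.val + i.val) * y ^ (j.val + (3 - j'.val)) * z ^ (k.val + (3 - k'.val)) = 1 := by
          have e1 : z ^ k'.val * z ^ (3 - k'.val) = 1 := by
            rw [← pow_add, Nat.add_sub_cancel' (by omega), hz]
          have e2 : y ^ j'.val * y ^ (3 - j'.val) = 1 := by
            rw [← pow_add, Nat.add_sub_cancel' (by omega), hy]
          have e3 : x ^ (3 - i'.val + i.val) * y ^ (j.val + (3 - j'.val)) * z ^ (k.val + (3 - k'.val)) =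
              (x ^ (3 - i'.val + i.val) * y ^ j.val * z ^ k.val) * y ^ (3 - j'.val) * z ^ (3 - k'.val) := by
            rw [pow_add y, pow_add z]
            have : x ^ (3 - i'.val + i.val) * y ^ j.val * z ^ k.val * y ^ (3 - j'.val) * z ^ (3 - k'.val) =
              x ^ (3 - i'.val + i.val) * y ^ j.val * (z ^ k.val * y ^ (3 - j'.val)) * z ^ (3 - k'.val) := by group
            rw [this, ((czy.pow_left _).pow_right _).eq]
            group
          rw [e3, h2]
          have : y ^ j'.val * z ^ k'.val * y ^ (3 - j'.val) * z ^ (3 - k'.val) =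
            y ^ j'.val * (z ^ k'.val * y ^ (3 - j'.val)) * z ^ (3 - k'.val) := by group
          rw [this, ((czy.pow_left _).pow_right _).eq]
          have : y ^ j'.val * (y ^ (3 - j'.val) * z ^ k'.val) * z ^ (3 - k'.val) =
            (y ^ j'.val * y ^ (3 - j'.val)) * (z ^ k'.val * z ^ (3 - k'.val)) := by group
          rw [this, e1, e2, one_mul]
        obtain ⟨q1, q2, q3⟩ := hone _ _ _ h3
        have b1 := i.2
        have b2 := j.2
        have b3 := k.2
        have b4 := i'.2
        have b5 := j'.2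
        have b6 := k'.2
        have r1 : i = i' := Fin.ext (by omega)
        have r2 : j = j' := Fin.ext (by omega)
        have r3 : k = k' := Fin.ext (by omega)
        rw [r1, r2, r3]
      · rintro ⟨g, hg⟩
        obtain ⟨i, hi, j, hj, k, hk, rfl⟩ := hred g hg
        exact ⟨(⟨i, hi⟩, ⟨j, hj⟩, ⟨k, hk⟩), rfl⟩
    rw [← Nat.card_congr (Equiv.ofBijective F hF), Nat.card_eq_fintype_card]
    rfl
  · intro g hg hg1
    obtain ⟨i, hi, j, hj, k, hk, rfl⟩ := hred g hg
    apply hQ i hi j hj k hk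
    by_contra hc
    push Not at hc
    apply hg1
    rw [hc.1, hc.2.1, hc.2.2]
    simp

end Heis

section Five

variable {T : Type*} [Group T]

/-- the subgroup generated by two commuting elements of order five -/
theorem five_subgroup {q r : T} (hq : q ^ 5 = 1) (hr : r ^ 5 = 1) (hqr : q * r = r * q) (Q : T → Prop) (hQ1 : ¬ Q 1)
    (hQq : ∀ i < 5, i ≠ 0 → Q (q ^ i))
    (hQ : ∀ k < 5, ∀ m < 5, m ≠ 0 → Q ((q ^ k * r) ^ m)) :
    ∃ K : Subgroup T, Nat.card K = 25 ∧ (∀ g ∈ K, g ≠ 1 → Q g) ∧ ∀ H : Subgroup T, q ∈ H → r ∈ H → K ≤ H := by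
  have cqr : Commute q r := hqr
  have hmul : ∀ i j i' j' : ℕ, q ^ i * r ^ j * (q ^ i' * r ^ j') = q ^ (i + i') * r ^ (j + j') := by
    intro i j i' j'
    have e : q ^ i * r ^ j * (q ^ i' * r ^ j') = q ^ i * (r ^ j * q ^ i') * r ^ j' := by group
    rw [e, (((cqr.symm).pow_left j).pow_right i').eq, pow_add, pow_add]
    group
  let K : Subgroup T :=
    { carrier := {g | ∃ i j : ℕ, g = q ^ i * r ^ j}
      one_mem' := ⟨0, 0, by simp⟩
      mul_mem' := by
        rintro a b ⟨i, j, rfl⟩ ⟨i', j', rfl⟩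
        exact ⟨_, _, hmul i j i' j'⟩
      inv_mem' := by
        rintro a ⟨i, j, rfl⟩
        refine ⟨4 * i, 4 * j, ?_⟩
        rw [inv_eq_iff_mul_eq_one, hmul]
        have e1 : i + 4 * i = 5 * i := by ring
        have e2 : j + 4 * j = 5 * j := by ring
        rw [e1, e2, pow_mul, pow_mul, hq, hr, one_pow, one_pow, one_mul] }
  have hmod : ∀ i j : ℕ, q ^ i * r ^ j = q ^ (i % 5) * r ^ (j % 5) := fun i j => by
    rw [← pow_mod_of hq, ← pow_mod_of hr]
  have key : ∀ i < 5, ∀ j < 5, (i ≠ 0 ∨ j ≠ 0) → Q (q ^ i * r ^ j) := by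
    intro i hi j hj hij
    by_cases hj0 : j = 0
    · subst hj0
      rw [pow_zero, mul_one]
      exact hQq i hi (by tauto)
    · -- choose k with k j = i mod 5
      have hex : ∃ k < 5, k * j % 5 = i % 5 := by
        interval_cases j
        · exact absurd rfl hj0
        all_goals interval_cases i <;> decide
      obtain ⟨k, hk, hkj⟩ := hex
      have h1 := hQ k hk j hj hj0
      rw [(cqr.pow_left k).mul_pow, ← pow_mul, pow_mod_of hq (k * j), hkj, ← pow_mod_of hq] at h1
      exact h1
  refine ⟨K, ?_, ?_, ?_⟩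
  · let F : Fin 5 × Fin 5 → ↥K := fun p => ⟨q ^ p.1.val * r ^ p.2.val, _, _, rfl⟩
    have hF : Function.Bijective F := by
      constructor
      · rintro ⟨i, j⟩ ⟨i', j'⟩ h
        have h1 : q ^ i.val * r ^ j.val = q ^ i'.val * r ^ j'.val := congrArg Subtype.val h
        have h2 : q ^ (i.val + (5 - i'.val)) * r ^ (j.val + (5 - j'.val)) = 1 := by
          rw [← hmul, h1, hmul, Nat.add_sub_cancel' (by omega), Nat.add_sub_cancel' (by omega), hq, hr, one_mul]
        have h3 : (i.val + (5 - i'.val)) % 5 = 0 ∧ (j.val + (5 - j'.val)) % 5 = 0 := by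
          by_contra hc
          apply hQ1
          rw [← h2, hmod]
          apply key _ (Nat.mod_lt _ (by norm_num)) _ (Nat.mod_lt _ (by norm_num))
          by_contra hc2
          push Not at hc2
          exact hc hc2
        have b1 := i.2
        have b2 := j.2
        have b4 := i'.2
        have b5 := j'.2
        have r1 : i = i' := Fin.ext (by omega)
        have r2 : j = j' := Fin.ext (by omega)
        rw [r1, r2]
      · rintro ⟨g, i, j, rfl⟩
        exact ⟨(⟨i % 5, Nat.mod_lt _ (by norm_num)⟩, ⟨j % 5, Nat.mod_lt _ (by norm_num)⟩),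
          Subtype.ext (hmod i j).symm⟩
    rw [← Nat.card_congr (Equiv.ofBijective F hF), Nat.card_eq_fintype_card]
    rfl
  · rintro g ⟨i, j, rfl⟩ hg1
    rw [hmod] at hg1 ⊢
    apply key _ (Nat.mod_lt _ (by norm_num)) _ (Nat.mod_lt _ (by norm_num))
    by_contra hc
    push Not at hc
    apply hg1
    rw [hc.1, hc.2]
    simp
  · rintro H hqH hrH g ⟨i, j, rfl⟩
    exact mul_mem (pow_mem hqH _) (pow_mem hrH _)

end Five

section Main

variable {T : Type*} [Group T] [Finite T] {Ω : Type*} [Fintype Ω] [MulAction T Ω]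

omit [Finite T] in
theorem pow_smul_of {a : T} {x : Ω} (hx : a • x = x) (k : ℕ) : a ^ k • x = x := by
  induction k with
  | zero => simp
  | succ k ih => rw [pow_succ, mul_smul, hx, ih]

theorem fx_pow_of {g : T} {n m : ℕ} (hn : 1 < n) (hg : g ^ n = 1) (hm : Nat.Coprime m n) : fx Ω (g ^ m) = fx Ω g := by
  have h1 : ∀ (a : T) (k : ℕ), fx Ω a ≤ fx Ω (a ^ k) := by
    intro a k
    unfold fx
    apply Nat.card_le_card_of_injective (fun x : fixedBy Ω a => (⟨x.1, pow_smul_of x.2 k⟩ : fixedBy Ω (a ^ k)))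
    intro x y h
    exact Subtype.ext (congrArg (fun z : fixedBy Ω (a ^ k) => z.1) h)
  obtain ⟨k, hk⟩ := Nat.exists_mul_mod_eq_one_of_coprime hm hn
  apply le_antisymm _ (h1 g m)
  have h2 := h1 (g ^ m) k
  rwa [← pow_mul, pow_mod_of hg (m * k), hk.2, pow_one] at h2

/-- the degrees -/
def dgc (n : ℕ) : Bool := Nat.ble n 26 || Nat.beq n 27 || Nat.beq n 40 || Nat.beq n 65 ||
  !(Nat.beq (17971200 % (n * (n - 1))) 0)

theorem degrees' : (List.range 66).all (fun a => (List.range 65).all fun b => dgc (65 * a + b)) = true := by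
  decide +kernel

theorem degrees (n : ℕ) (hn : n < 4241) (h : n * (n - 1) ∣ 17971200) :
    n < 27 ∨ n = 27 ∨ n = 40 ∨ n = 65 := by
  have h1 := List.all_eq_true.1 (List.all_eq_true.1 degrees' (n / 65) (List.mem_range.2 (by omega))) (n % 65)
    (List.mem_range.2 (by omega))
  rw [Nat.div_add_mod] at h1
  unfold dgc at h1
  simp only [Bool.or_eq_true, Nat.ble_eq, Nat.beq_eq, Bool.not_eq_true'] at h1
  rcases h1 with (((h1 | h1) | h1) | h1) | h1
  · left; omega
  · right; left; exact h1
  · right; right; left; exact h1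
  · right; right; right; exact h1
  · exfalso
    have h2 := Nat.mod_eq_zero_of_dvd h
    rw [h2] at h1
    exact absurd h1 (by decide)

omit [Finite T] in
theorem card_mul_dvd [FaithfulSMul T Ω] [Finite T] (hΩ : 3 ≤ Fintype.card Ω) (h : MulAction.IsMultiplyPretransitive T Ω 2) :
    Fintype.card Ω * (Fintype.card Ω - 1) ∣ Nat.card T := by
  classical
  have h1 : IsPretransitive T (Fin 2 ↪ Ω) := h
  have hne : Nonempty (Fin 2 ↪ Ω) := by
    rw [Function.Embedding.nonempty_iff_card_le, Fintype.card_fin]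
    omega
  obtain ⟨e⟩ := hne
  have h2 : Nat.card (Fin 2 ↪ Ω) ∣ Nat.card T := by
    rw [← Nat.card_congr (orbitProdStabilizerEquivGroup T e), Nat.card_prod]
    have h3 : Nat.card (orbit T e) = Nat.card (Fin 2 ↪ Ω) := by
      rw [orbit_eq_univ]
      exact Nat.card_congr (Equiv.Set.univ _)
    rw [h3]
    exact dvd_mul_right _ _
  rw [Nat.card_eq_fintype_card, Fintype.card_embedding_eq, Fintype.card_fin] at h2
  have e2 : (Fintype.card Ω).descFactorial 2 = Fintype.card Ω * (Fintype.card Ω - 1) := by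
    rw [Nat.descFactorial_succ, Nat.descFactorial_one]
    ring
  rwa [e2] at h2

theorem five_case {n : ℕ} (hcard : Nat.card T = 17971200) (hn : Fintype.card Ω = n) (hdiv : ¬ 25 * n ∣ 17971200)
    {q r : T} (hq : q ^ 5 = 1) (hr : r ^ 5 = 1) (hqr : q * r = r * q)
    (htr : IsPretransitive T Ω)
    (hfq : ∀ k < 5, ∀ m < 5, m ≠ 0 → fx Ω ((q ^ k * r) ^ m) = fx Ω q)
    {L : Subgroup T} (hL : Nat.card L = 25) (hLle : ∀ H : Subgroup T, q ∈ H → r ∈ H → L ≤ H)
    (hm5 : (25 : ℤ) ∣ (Fintype.card Ω : ℤ) - fx Ω q) (hn2 : n % 25 = 15) (hn3 : n < 75) : False := by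
  classical
  -- no point is fixed by `q` and `r`
  have hno : ∀ a : Ω, q • a = a → r • a = a → False := by
    intro a ha hb
    have h1 : L ≤ stabilizer T a := hLle _ ha hb
    have h2 := Subgroup.card_dvd_of_le h1
    have h3 := Nat.card_congr (orbitProdStabilizerEquivGroup T a)
    rw [Nat.card_prod, orbit_eq_univ, Nat.card_congr (Equiv.Set.univ _), Nat.card_eq_fintype_card, hn, hcard] at h3
    apply hdiv
    rw [← h3, hL] at *
    rw [mul_comm 25]
    exact mul_dvd_mul_left _ h2
  -- disjoint sets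
  let S : ℕ → Finset Ω := fun k => Finset.univ.filter fun a => (q ^ k * r) • a = a
  have hS : ∀ k < 5, (S k).card = fx Ω q := by
    intro k hk
    rw [← hfq k hk 1 (by norm_num) (by norm_num), pow_one]
    unfold fx
    rw [Nat.card_eq_fintype_card, ← Fintype.card_coe]
    apply Fintype.card_congr
    exact
      { toFun := fun a => ⟨a.1, (Finset.mem_filter.1 a.2).2⟩
        invFun := fun a => ⟨a.1, Finset.mem_filter.2 ⟨Finset.mem_univ _, a.2⟩⟩
        left_inv := fun _ => rfl
        right_inv := fun _ => rfl }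
  have hdis : ∀ k < 5, ∀ l < 5, k < l → Disjoint (S k) (S l) := by
    intro k hk l hl hkl
    rw [Finset.disjoint_left]
    intro a ha hb
    have ha' : (q ^ k * r) • a = a := (Finset.mem_filter.1 ha).2
    have hb' : (q ^ l * r) • a = a := (Finset.mem_filter.1 hb).2
    -- q^(l-k) fixes a
    have e1 : q ^ l * r = q ^ (l - k) * (q ^ k * r) := by
      rw [← mul_assoc, ← pow_add, Nat.sub_add_cancel hkl.le]
    have h1 : q ^ (l - k) • a = a := by
      rw [e1, mul_smul, ha'] at hb'
      exact hb'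
    have hco : Nat.Coprime (l - k) 5 := by
      interval_cases l <;> interval_cases k <;> first | decide | omega
    obtain ⟨c, hc⟩ := Nat.exists_mul_mod_eq_one_of_coprime hco (by norm_num)
    have h2 : q • a = a := by
      have := pow_smul_of h1 c
      rwa [← pow_mul, pow_mod_of hq, hc.2, pow_one] at this
    have h3 : r • a = a := by
      have h4 := pow_smul_of h2 k
      have e2 : q ^ k * r = r * q ^ k := ((show Commute q r from hqr).pow_left k).eq
      rw [e2, mul_smul, h4] at ha'
      exact ha'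
    exact hno a h2 h3
  have hsum : ((S 0) ∪ (S 1) ∪ (S 2) ∪ (S 3) ∪ (S 4)).card = 5 * fx Ω q := by
    have d01 := hdis 0 (by norm_num) 1 (by norm_num) (by norm_num)
    have d02 := hdis 0 (by norm_num) 2 (by norm_num) (by norm_num)
    have d03 := hdis 0 (by norm_num) 3 (by norm_num) (by norm_num)
    have d04 := hdis 0 (by norm_num) 4 (by norm_num) (by norm_num)
    have d12 := hdis 1 (by norm_num) 2 (by norm_num) (by norm_num)
    have d13 := hdis 1 (by norm_num) 3 (by norm_num) (by norm_num)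
    have d14 := hdis 1 (by norm_num) 4 (by norm_num) (by norm_num)
    have d23 := hdis 2 (by norm_num) 3 (by norm_num) (by norm_num)
    have d24 := hdis 2 (by norm_num) 4 (by norm_num) (by norm_num)
    have d34 := hdis 3 (by norm_num) 4 (by norm_num) (by norm_num)
    rw [Finset.card_union_of_disjoint, Finset.card_union_of_disjoint, Finset.card_union_of_disjoint,
      Finset.card_union_of_disjoint d01, hS 0 (by norm_num), hS 1 (by norm_num), hS 2 (by norm_num),
      hS 3 (by norm_num), hS 4 (by norm_num)]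
    · ring
    · exact Finset.disjoint_union_left.2 ⟨d02, d12⟩
    · exact Finset.disjoint_union_left.2 ⟨Finset.disjoint_union_left.2 ⟨d03, d13⟩, d23⟩
    · exact Finset.disjoint_union_left.2 ⟨Finset.disjoint_union_left.2 ⟨Finset.disjoint_union_left.2 ⟨d04, d14⟩, d24⟩, d34⟩
  have hle := Finset.card_le_univ ((S 0) ∪ (S 1) ∪ (S 2) ∪ (S 3) ∪ (S 4))
  rw [hsum, hn] at hle
  rw [hn] at hm5
  omega

/-- no 2-transitive actions -/
theorem no_two_transitive [FaithfulSMul T Ω] (hcard : Nat.card T = 17971200)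
    {x y z : T} (hx1 : x ≠ 1) (hx : x ^ 3 = 1) (hy : y ^ 3 = 1) (hz : z ^ 3 = 1) (hxz : x * z = z * x)
    (hyz : y * z = z * y) (hxy : x * y = z * (y * x))
    (h3 : ∀ i < 3, ∀ j < 3, ∀ k < 3, (i ≠ 0 ∨ j ≠ 0 ∨ k ≠ 0) → IsConj (x ^ i * y ^ j * z ^ k) x)
    {q r : T} (hq1 : q ≠ 1) (hq : q ^ 5 = 1) (hr : r ^ 5 = 1) (hqr : q * r = r * q)
    (h5 : ∀ k < 5, ∃ m < 5, m ≠ 0 ∧ IsConj ((q ^ k * r) ^ m) q)
    {p t : T} (hp1 : p ≠ 1) (hp : p ^ 13 = 1) (ht : t ^ 3 = 1) (htx : IsConj t x) (htp : t * p = p ^ 3 * t)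
    (hΩ : 3 ≤ Fintype.card Ω) : ¬ MulAction.IsMultiplyPretransitive T Ω 2 := by
  classical
  intro h2t
  have hdvd := card_mul_dvd hΩ h2t
  rw [hcard] at hdvd
  have hlt : Fintype.card Ω < 4241 := by
    by_contra hc
    push Not at hc
    have h1 := Nat.le_of_dvd (by norm_num) hdvd
    have h2 : 4241 * 4240 ≤ Fintype.card Ω * (Fintype.card Ω - 1) := Nat.mul_le_mul hc (by omega)
    omega
  -- the elements of order three
  have hx3 : fx Ω x < Fintype.card Ω := fx_lt hx1
  obtain ⟨K, hK, hKQ⟩ := heis_subgroup hx hy hz hxz hyz hxy (fun g => IsConj g x)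
    (fun h => hx1 (isConj_one_right.1 h)) h3
  have hm3 := burn_mod (Ω := Ω) K (f := fx Ω x) (fun g hg hg1 => fx_conj (hKQ g hg hg1))
  rw [hK] at hm3
  have hq3 : fx Ω q < Fintype.card Ω := fx_lt hq1
  -- the elements of order five
  have hfq : ∀ k < 5, ∀ m < 5, m ≠ 0 → fx Ω ((q ^ k * r) ^ m) = fx Ω q := by
    intro k hk m hm hm0
    obtain ⟨m', hm', hm0', hc⟩ := h5 k hk
    have e5 : (q ^ k * r) ^ 5 = 1 := by
      have c : Commute (q ^ k) r := (show Commute q r from hqr).pow_left k
      rw [c.mul_pow, hr, ← pow_mul, mul_comm k, pow_mul, hq, one_pow, one_mul]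
    have c1 : Nat.Coprime m 5 := by
      interval_cases m <;> first | exact absurd rfl hm0 | decide
    have c2 : Nat.Coprime m' 5 := by
      interval_cases m' <;> first | exact absurd rfl hm0' | decide
    rw [fx_pow_of (by norm_num) e5 c1, ← fx_pow_of (by norm_num) e5 c2]
    exact fx_conj hc
  have hfq' : ∀ i < 5, i ≠ 0 → fx Ω (q ^ i) = fx Ω q := by
    intro i hi hi0
    have c1 : Nat.Coprime i 5 := by
      interval_cases i <;> first | exact absurd rfl hi0 | decide
    exact fx_pow_of (by norm_num) hq c1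
  obtain ⟨L, hL, hLQ, hLle⟩ := five_subgroup hq hr hqr (fun g => fx Ω g = fx Ω q) (by
    intro h
    have e1 : fx Ω (1 : T) = Fintype.card Ω := by
      unfold fx
      rw [← Nat.card_eq_fintype_card]
      exact Nat.card_congr (Equiv.subtypeUnivEquiv (fun x => by show (1 : T) • x = x; rw [one_smul]))
    rw [e1] at h
    omega) hfq' hfq
  have hm5 := burn_mod (Ω := Ω) L hLQ
  rw [hL] at hm5
  rcases degrees _ hlt hdvd with hn | hn | hn | hn
  · -- small degrees
    have h1 : (27 : ℤ) ∣ (Fintype.card Ω : ℤ) - fx Ω x := hm3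
    omega
  · -- degree 27
    have h1 : (27 : ℤ) ∣ (Fintype.card Ω : ℤ) - fx Ω x := hm3
    have hx0 : fx Ω x = 0 := by omega
    have ht0 : fx Ω t = 0 := by rw [fx_conj htx, hx0]
    have htno : ∀ a : Ω, t • a ≠ a := by
      intro a ha
      unfold fx at ht0
      have : IsEmpty (fixedBy Ω t) := by
        rcases Nat.card_eq_zero.1 ht0 with h | h
        · exact h
        · exact absurd (inferInstance : Finite (fixedBy Ω t)) (by rwa [not_finite_iff_infinite])
      exact this.false ⟨a, ha⟩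
    -- the fixed points of `p`
    have hF13 : ∀ a : Ω, p • a = a → p • (t • a) = t • a := by
      intro a ha
      have e1 : t⁻¹ * p * t = p ^ 9 := by
        have e2 : t * p ^ 9 = p ^ 27 * t := by
          have : ∀ k, t * p ^ k = p ^ (3 * k) * t := by
            intro k
            induction k with
            | zero => simp
            | succ k ih =>
              rw [pow_succ, ← mul_assoc, ih, mul_assoc, htp, ← mul_assoc, ← pow_add]
              congr 2
          exact this 9
        have e3 : p ^ 27 = p := by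
          rw [pow_mod_of hp 27]; exact pow_one p
        rw [e3] at e2
        rw [mul_assoc, inv_mul_eq_iff_eq_mul, e2]
      have e2 : p * t = t * p ^ 9 := by rw [← e1]; group
      rw [smul_smul, e2, mul_smul, pow_smul_of ha]
    let F := {a : Ω // p • a = a}
    let σ : Function.End F := fun a => ⟨t • a.1, hF13 a.1 a.2⟩
    have hσ : σ ^ 3 ^ 1 = 1 := by
      rw [pow_one]
      funext a
      apply Subtype.ext
      show t • t • t • a.1 = a.1
      rw [smul_smul, smul_smul, ← sq, ← pow_succ, ht, one_smul]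
    have : Fact (Nat.Prime 3) := ⟨Nat.prime_three⟩
    have hmod := Equiv.Perm.card_fixedPoints_modEq (f := σ) (p := 3) (n := 1) hσ
    have hfp : Fintype.card (Function.fixedPoints σ) = 0 := by
      rw [Fintype.card_eq_zero_iff]
      refine ⟨fun a => htno a.1.1 ?_⟩
      have : σ a.1 = a.1 := a.2
      exact congrArg Subtype.val this
    rw [hfp] at hmod
    have hF3 : 3 ∣ Fintype.card F := (Nat.modEq_zero_iff_dvd).1 hmod
    -- modulo 13
    have hF' : fx Ω p = Fintype.card F := by
      unfold fx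
      rw [Nat.card_eq_fintype_card]
      exact Fintype.card_congr (Equiv.refl _)
    have hp27 := fx_lt (Ω := Ω) hp1
    have : Fact (Nat.Prime 13) := ⟨by norm_num⟩
    let τ : Function.End Ω := fun a => p • a
    have hτ : τ ^ 13 ^ 1 = 1 := by
      rw [pow_one]
      have h4 : ∀ k : ℕ, τ ^ k = fun a => p ^ k • a := by
        intro k
        induction k with
        | zero => funext a; simp; rfl
        | succ k ih =>
          rw [pow_succ, ih]
          funext a
          show p ^ k • p • a = p ^ (k + 1) • a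
          rw [smul_smul, ← pow_succ]
      rw [h4, hp]
      funext a
      rw [one_smul]
      rfl
    have hmod2 := Equiv.Perm.card_fixedPoints_modEq (f := τ) (p := 13) (n := 1) hτ
    have hfp2 : Fintype.card (Function.fixedPoints τ) = Fintype.card F := Fintype.card_congr (Equiv.refl _)
    rw [hfp2, hn] at hmod2
    rw [hF', hn] at hp27
    have h13 : Fintype.card F % 13 = 1 := by
      have := hmod2
      unfold Nat.ModEq at this
      omega
    obtain ⟨c, hc⟩ := hF3
    rw [hc] at h13 hp27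
    omega
  · have htr : IsPretransitive T Ω := MulAction.isPretransitive_of_is_two_pretransitive
    exact five_case hcard hn (by norm_num) hq hr hqr htr hfq hL hLle hm5 (by norm_num) (by norm_num)
  · have htr : IsPretransitive T Ω := MulAction.isPretransitive_of_is_two_pretransitive
    exact five_case hcard hn (by norm_num) hq hr hqr htr hfq hL hLle hm5 (by norm_num) (by norm_num)

end Main

end Cfsg.Agent.H11.Tits
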