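import Cfsg.Agent.H11_Cyc
import Cfsg.Agent.H9_Sharp2
import Cfsg.Agent.H9_PermIndex
import Cfsg.Agent.H9_PrimeNorm

set_option autoImplicit false

/-!
Transitive groups of degree 7 (13) containing a 5-cycle (an 11-cycle).
-/

namespace Cfsg.Agent.H11.Trouble

open MulAction Equiv.Perm

variable {α : Type*} [Fintype α] [DecidableEq α]

theorem mt3 {G : Subgroup (Equiv.Perm α)} (hG : IsPreprimitive G α) {p : ℕ} (hp : p.Prime)
    {g : Equiv.Perm α} (hgc : g.IsCycle) (hgp : g.support.card = p) (hg : g ∈ G)
    (hcard : Fintype.card α = p + 2) : IsMultiplyPretransitive G α 3 := by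
  have h2 := Cyc.fs_trans_prime hp hgc hgp hg
  have h3 := hG.isMultiplyPreprimitive (s := ((g.support : Set α)ᶜ)) (n := 1) (by
    rw [← Finset.coe_compl, Set.ncard_coe_finset, Finset.card_compl, hgp, hcard]; omega) (by
    rw [Nat.card_eq_fintype_card]; have := hp.two_le; omega) h2
  exact h3.isMultiplyPretransitive

/-- the elements of `H` living on `S` -/
def loc (H : Subgroup (Equiv.Perm α)) (S : Finset α) : Subgroup (Equiv.Perm {t // t ∈ S}) :=
  H.comap (Equiv.Perm.ofSubtype (p := fun t => t ∈ S))

theorem mem_loc {H : Subgroup (Equiv.Perm α)} {S : Finset α} {σ : Equiv.Perm {t // t ∈ S}} :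
    σ ∈ loc H S ↔ Equiv.Perm.ofSubtype σ ∈ H := Iff.rfl

theorem card_fix {G : Type*} [Group G] [MulAction G α] {k : ℕ}
    (hk : IsMultiplyPretransitive G α k) (x : Fin k ↪ α) :
    Nat.card G = (Fintype.card α).descFactorial k * Nat.card {g : G // ∀ i, g • x i = x i} := by
  haveI := hk
  have h1 := MulAction.index_stabilizer_of_transitive G x
  have h2 : Nat.card (Fin k ↪ α) = (Fintype.card α).descFactorial k := by
    rw [Nat.card_eq_fintype_card, Fintype.card_embedding_eq, Fintype.card_fin]
  have h3 : Nat.card (stabilizer G x) = Nat.card {g : G // ∀ i, g • x i = x i} := by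
    refine Nat.card_congr (Equiv.subtypeEquivRight fun g => ?_)
    rw [mem_stabilizer_iff]
    constructor
    · intro h i
      exact congrArg (fun q : Fin k ↪ α => q i) h
    · intro h
      ext i
      exact h i
  rw [← h2, ← h1, ← h3, mul_comm]
  exact (Subgroup.card_mul_index (stabilizer G x)).symm

theorem card_loc {H : Subgroup (Equiv.Perm α)} {k : ℕ} (hk : IsMultiplyPretransitive H α k)
    {S : Finset α} (hS : S.card + k = Fintype.card α) :
    Nat.card H = (Fintype.card α).descFactorial k * Nat.card (loc H S) := by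
  classical
  have hSc : (Sᶜ).card = k := by rw [Finset.card_compl]; omega
  let e : Fin k ≃ (Sᶜ : Finset α) := (Finset.equivFinOfCardEq hSc).symm
  let x : Fin k ↪ α := ⟨fun i => (e i : α), fun i j hij => e.injective (Subtype.ext hij)⟩
  rw [card_fix hk x]
  congr 1
  have hst : ∀ h : {g : H // ∀ i, g • x i = x i}, ∀ t ∉ S, ((h : H) : Equiv.Perm α) t = t := by
    intro h t ht
    have h4 := h.2 (e.symm ⟨t, by rw [Finset.mem_compl]; exact ht⟩)
    have h5 : x (e.symm ⟨t, by rw [Finset.mem_compl]; exact ht⟩) = t := by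
      change ((e (e.symm ⟨t, by rw [Finset.mem_compl]; exact ht⟩) : (Sᶜ : Finset α)) : α) = t
      rw [Equiv.apply_symm_apply]
    rw [h5] at h4
    exact h4
  have hmaps : ∀ h : {g : H // ∀ i, g • x i = x i}, ∀ t : α, ((h : H) : Equiv.Perm α) t ∈ S ↔ t ∈ S := by
    intro h t
    have hfix := hst h
    constructor
    · intro ht
      by_contra hcon
      rw [hfix t hcon] at ht
      exact hcon ht
    · intro ht
      by_contra hcon
      have h1 := hfix _ hcon
      have h2 := ((h : H) : Equiv.Perm α).injective h1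
      rw [h2] at hcon
      exact hcon ht
  refine Nat.card_congr
    { toFun := fun h => ⟨((h : H) : Equiv.Perm α).subtypePerm (hmaps h), ?_⟩
      invFun := fun σ => ⟨⟨Equiv.Perm.ofSubtype (σ : Equiv.Perm {t // t ∈ S}), σ.2⟩, ?_⟩
      left_inv := ?_
      right_inv := ?_ }
  · rw [mem_loc, Equiv.Perm.ofSubtype_subtypePerm]
    · exact (h : H).2
    · intro t ht
      by_contra hcon
      exact ht (hst h t hcon)
  · intro i
    exact Equiv.Perm.ofSubtype_apply_of_not_mem _ (Finset.mem_compl.mp (e i).2)
  · intro h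
    apply Subtype.ext
    apply Subtype.ext
    refine Equiv.Perm.ofSubtype_subtypePerm (hmaps h) ?_
    intro t ht
    by_contra hcon
    exact ht (hst h t hcon)
  · intro σ
    apply Subtype.ext
    exact Equiv.Perm.subtypePerm_ofSubtype _

theorem triv3 {H : Subgroup (Equiv.Perm α)} (h3 : IsMultiplyPretransitive H α 3)
    (hα : 3 ≤ Fintype.card α) (hcard : Nat.card H = (Fintype.card α).descFactorial 3)
    {h : Equiv.Perm α} (hh : h ∈ H) {a b c : α} (hab : a ≠ b) (hac : a ≠ c) (hbc : b ≠ c)
    (ha : h a = a) (hb : h b = b) (hc : h c = c) : h = 1 := by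
  classical
  let x : Fin 3 ↪ α := ⟨![a, b, c], by
    intro i j hij
    fin_cases i <;> fin_cases j <;> simp_all⟩
  have h4 := card_fix h3 x
  rw [hcard] at h4
  have hpos : 0 < (Fintype.card α).descFactorial 3 := Nat.descFactorial_pos.2 hα
  have h5 : Nat.card {g : H // ∀ i, g • x i = x i} = 1 :=
    Nat.eq_of_mul_eq_mul_left hpos (by rw [← h4, mul_one])
  rw [Nat.card_eq_one_iff_unique] at h5
  haveI := h5.1
  have e1 : (⟨⟨h, hh⟩, by
      intro i
      fin_cases i
      · exact ha
      · exact hb
      · exact hc⟩ : {g : H // ∀ i, g • x i = x i}) = ⟨1, fun i => one_smul _ _⟩ := Subsingleton.elim _ _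
  exact congrArg (fun q : {g : H // ∀ i, g • x i = x i} => ((q : H) : Equiv.Perm α)) e1

/-- a group of order `n (n-1) (n-2)` which is 3-transitive of degree `n` forces `n - 1` to be a prime power. -/
theorem sharp3 {H : Subgroup (Equiv.Perm α)} (h3 : IsMultiplyPretransitive H α 3)
    (hα : 3 ≤ Fintype.card α) (hcard : Nat.card H = (Fintype.card α).descFactorial 3) :
    ∃ r j : ℕ, r.Prime ∧ Fintype.card α = r ^ j + 1 := by
  classical
  have hne : Nonempty α := Fintype.card_pos_iff.1 (by omega)
  obtain ⟨a⟩ := hne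
  haveI : IsPretransitive H α := by
    haveI : IsMultiplyPretransitive H α 2 := isMultiplyPretransitive_of_le (n := 3) (by omega)
      (by rw [Nat.card_eq_fintype_card]; exact hα)
    exact isPretransitive_of_is_two_pretransitive
  have h2 : IsMultiplyPretransitive (stabilizer H a) (SubMulAction.ofStabilizer H a) 2 :=
    SubMulAction.ofStabilizer.isMultiplyPretransitive.mp h3
  have hc : Fintype.card (SubMulAction.ofStabilizer H a) + 1 = Fintype.card α := by
    have := SubMulAction.nat_card_ofStabilizer_add_one_eq H a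
    rwa [Nat.card_eq_fintype_card, Nat.card_eq_fintype_card] at this
  haveI : FaithfulSMul (stabilizer H a) (SubMulAction.ofStabilizer H a) := by
    refine ⟨fun {g k} hgk => ?_⟩
    apply Subtype.ext
    apply Subtype.ext
    ext t
    by_cases ht : t = a
    · have h4 : ((g : H) : Equiv.Perm α) a = a := g.2
      have h5 : ((k : H) : Equiv.Perm α) a = a := k.2
      rw [ht, h4, h5]
    · have := hgk ⟨t, by rw [SubMulAction.mem_ofStabilizer_iff]; exact ht⟩
      exact congrArg Subtype.val this
  obtain ⟨r, j, hr, hj, hrj, -⟩ := H9.Sharp2.main (G := stabilizer H a)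
    (α := SubMulAction.ofStabilizer H a) h2 (by
      intro x
      rw [eq_bot_iff]
      intro g hg
      rw [mem_stabilizer_iff] at hg
      rw [Subgroup.mem_bot]
      apply Subtype.ext
      apply Subtype.ext
      have e0 := congrArg (fun q : Fin 2 ↪ SubMulAction.ofStabilizer H a => ((q 0 : SubMulAction.ofStabilizer H a) : α)) hg
      have e1 := congrArg (fun q : Fin 2 ↪ SubMulAction.ofStabilizer H a => ((q 1 : SubMulAction.ofStabilizer H a) : α)) hg
      have n0 : (x 0 : α) ≠ a := (SubMulAction.mem_ofStabilizer_iff ..).mp (x 0).2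
      have n1 : (x 1 : α) ≠ a := (SubMulAction.mem_ofStabilizer_iff ..).mp (x 1).2
      have n01 : (x 0 : α) ≠ (x 1 : α) := by
        intro h
        have := x.injective (Subtype.ext h)
        exact absurd this (by decide)
      exact triv3 h3 hα hcard (g : H).2 n0.symm n1.symm n01 g.2 e0 e1) (by omega)
  exact ⟨r, j, hr, by rw [← hrj]; omega⟩

theorem not_prime_power_six {r j : ℕ} (hr : r.Prime) (h : r ^ j = 6) : False := by
  have h2 : 2 ∣ r ^ j := by rw [h]; norm_num
  have h3 : 3 ∣ r ^ j := by rw [h]; norm_num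
  have e2 := (Nat.prime_dvd_prime_iff_eq Nat.prime_two hr).mp (Nat.prime_two.dvd_of_dvd_pow h2)
  have e3 := (Nat.prime_dvd_prime_iff_eq Nat.prime_three hr).mp (Nat.prime_three.dvd_of_dvd_pow h3)
  omega

theorem not_prime_power_twelve {r j : ℕ} (hr : r.Prime) (h : r ^ j = 12) : False := by
  have h2 : 2 ∣ r ^ j := by rw [h]; norm_num
  have h3 : 3 ∣ r ^ j := by rw [h]; norm_num
  have e2 := (Nat.prime_dvd_prime_iff_eq Nat.prime_two hr).mp (Nat.prime_two.dvd_of_dvd_pow h2)
  have e3 := (Nat.prime_dvd_prime_iff_eq Nat.prime_three hr).mp (Nat.prime_three.dvd_of_dvd_pow h3)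
  omega

end Cfsg.Agent.H11.Trouble
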