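import Cfsg.Agent.H11_Trouble

set_option autoImplicit false

namespace Cfsg.Agent.H11.Trouble

open MulAction Equiv.Perm

variable {α : Type*} [Fintype α] [DecidableEq α]

theorem cover_of_full {y x : Equiv.Perm α} (h : y.support.card = Fintype.card α) (i : α) :
    x i ≠ i ∨ y i ≠ i := by
  right
  have h1 : y.support = Finset.univ := by
    rw [← Finset.card_eq_iff_eq_univ]; exact h
  have h2 : i ∈ y.support := by rw [h1]; exact Finset.mem_univ i
  exact Equiv.Perm.mem_support.mp h2

theorem seven (hα : Fintype.card α = 7) {x y : Equiv.Perm α} (hx : orderOf x = 5)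
    (hy : orderOf y = 7) (hxs : sign x = 1) (hys : sign y = 1) :
    Subgroup.closure ({x, y} : Set (Equiv.Perm α)) = alternatingGroup α := by
  classical
  set H := Subgroup.closure ({x, y} : Set (Equiv.Perm α)) with hH
  have hym : y ∈ H := Subgroup.subset_closure (by simp)
  have hxm : x ∈ H := Subgroup.subset_closure (by simp)
  obtain ⟨hxc, hxp⟩ := Cyc.cycle_of_order (by norm_num) hx (by omega)
  obtain ⟨hyc, hyq⟩ := Cyc.cycle_of_order (by norm_num) hy (by omega)
  have htr := Cyc.trans_of_two (by norm_num) hx hyc hyq (by omega)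
    (cover_of_full (by rw [hyq, hα]))
  have hprim := Cyc.prim_of_cycle htr (by norm_num) (by omega) hyc hyq hym
  have h3 : IsMultiplyPretransitive H α 3 := mt3 hprim (by norm_num) hxc hxp hxm (by omega)
  have hle := Cyc.closure_le_alt hxs hys
  obtain ⟨x0⟩ : Nonempty (Fin 3 ↪ α) := Function.Embedding.nonempty_of_card_le (by
    rw [Fintype.card_fin]; omega)
  have hc := card_fix h3 x0
  rw [hα] at hc
  have e1 : (7 : ℕ).descFactorial 3 = 210 := by decide
  rw [e1] at hc
  set m := Nat.card {g : H // ∀ i, g • x0 i = x0 i} with hm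
  have hm1 : m ≠ 1 := by
    intro h
    obtain ⟨r, j, hr, hj⟩ := sharp3 h3 (by omega) (by rw [hα, e1, hc, h])
    exact not_prime_power_six (j := j) hr (by omega)
  have hm0 : m ≠ 0 := by
    intro h
    rw [h] at hc
    exact Nat.card_pos.ne' hc
  haveI hsimp : IsSimpleGroup (alternatingGroup α) := alternatingGroup.isSimpleGroup (by
    rw [Nat.card_eq_fintype_card]; omega)
  haveI : Nontrivial α := Fintype.one_lt_card_iff_nontrivial.mp (by omega)
  have hA : Nat.card (alternatingGroup α) = 2520 := by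
    have := nat_card_alternatingGroup (α := α)
    rw [Nat.card_eq_fintype_card (α := α), hα] at this
    rw [this]; decide
  by_contra hne
  have h4 : H.subgroupOf (alternatingGroup α) ≠ ⊤ := by
    intro h
    rw [Subgroup.subgroupOf_eq_top] at h
    exact hne (le_antisymm hle h)
  have h5 := H9.PermIndex.card_dvd_factorial _ h4
  rw [hA] at h5
  have h6 := Subgroup.card_mul_index (H.subgroupOf (alternatingGroup α))
  have h7 : Nat.card (H.subgroupOf (alternatingGroup α)) = Nat.card H :=
    Nat.card_congr (Subgroup.subgroupOfEquivOfLe hle).toEquiv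
  rw [h7, hc, hA] at h6
  set i := (H.subgroupOf (alternatingGroup α)).index with hi
  have h8 : i ≤ 6 := by
    by_contra hcon
    have : 210 * 2 * 7 ≤ 210 * m * i := Nat.mul_le_mul (Nat.mul_le_mul_left _ (by omega)) (by omega)
    omega
  have h9 := Nat.le_of_dvd (Nat.factorial_pos i) h5
  have h10 := Nat.factorial_le h8
  have : (6 : ℕ).factorial = 720 := by decide
  omega

/-- for each permutation of the fixed points of `g` there is `u ∈ G` normalising `⟨g⟩` and inducing it -/
theorem witt {G : Subgroup (Equiv.Perm α)} {g : Equiv.Perm α} {p : ℕ} (hp : p.Prime)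
    (hmt : IsMultiplyPretransitive G α (g.support)ᶜ.card) (hgp : orderOf g = p) (hg : g ∈ G)
    (hsq : ¬ p ^ 2 ∣ Nat.card G) (f : α → α) (hf : Set.InjOn f ((g.support)ᶜ : Finset α))
    (hfD : ∀ t ∈ (g.support)ᶜ, f t ∈ (g.support)ᶜ) :
    ∃ u ∈ G, (∀ t ∈ (g.support)ᶜ, u t = f t) ∧ ∃ i : ℤ, u * g * u⁻¹ = g ^ i := by
  classical
  haveI : Fact p.Prime := ⟨hp⟩
  set D : Finset α := g.supportᶜ with hD
  let H : Subgroup G := fixingSubgroup G (D : Set α)
  have hH : ∀ h : G, h ∈ H ↔ ∀ t ∈ D, h • t = t := by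
    intro h
    rw [mem_fixingSubgroup_iff]
    simp
  have hgH : (⟨g, hg⟩ : G) ∈ H := by
    rw [hH]
    intro t ht
    rw [hD, Finset.mem_compl, Equiv.Perm.notMem_support] at ht
    exact ht
  let gH : H := ⟨⟨g, hg⟩, hgH⟩
  have hordgH : orderOf gH = p := by
    rw [← hgp]
    rw [← Subgroup.orderOf_coe gH, ← Subgroup.orderOf_coe (gH : G)]
  have hcardH : (Nat.card H).factorization p = 1 := by
    have h2 : p ∣ Nat.card H := by rw [← hordgH]; exact orderOf_dvd_natCard gH
    have h3 : ¬ p ^ 2 ∣ Nat.card H := fun h => hsq (h.trans (Subgroup.card_subgroup_dvd_card H))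
    have hne : Nat.card H ≠ 0 := Nat.card_pos.ne'
    apply le_antisymm
    · by_contra hcon
      exact h3 ((hp.pow_dvd_iff_le_factorization hne).2 (by omega))
    · exact (hp.dvd_iff_one_le_factorization hne).1 h2
  obtain ⟨y, hy⟩ := H9.Jordan.exists_of_multTrans hmt D rfl f hf
  have hfs : ∀ t ∈ D, ∃ t' ∈ D, f t' = t := by
    intro t ht
    have himg : D.image f = D := Finset.eq_of_subset_of_card_le
      (by intro z hz; rw [Finset.mem_image] at hz; obtain ⟨w, hw, rfl⟩ := hz; exact hfD w hw)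
      (by rw [Finset.card_image_of_injOn hf])
    rw [← himg, Finset.mem_image] at ht
    exact ht
  have hconj : y * ⟨g, hg⟩ * y⁻¹ ∈ H := by
    rw [hH]
    intro t ht
    obtain ⟨t', ht', rfl⟩ := hfs t ht
    rw [← hy t' ht', mul_smul, mul_smul, inv_smul_smul, (hH _).1 hgH t' ht']
  let g2 : H := ⟨_, hconj⟩
  have hordg2 : orderOf g2 = p := by
    rw [← Subgroup.orderOf_coe g2]
    show orderOf (y * ⟨g, hg⟩ * y⁻¹) = p
    have : y * (⟨g, hg⟩ : G) * y⁻¹ = MulAut.conj y ⟨g, hg⟩ := rfl
    rw [this, MulEquiv.orderOf_eq, ← hordgH, ← Subgroup.orderOf_coe gH]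
  let P1 : Sylow p H := Sylow.ofCard (Subgroup.zpowers gH) (by rw [Nat.card_zpowers, hordgH, hcardH, pow_one])
  let P2 : Sylow p H := Sylow.ofCard (Subgroup.zpowers g2) (by rw [Nat.card_zpowers, hordg2, hcardH, pow_one])
  obtain ⟨h, hh⟩ := MulAction.exists_smul_eq H P2 P1
  have hmem : h * g2 * h⁻¹ ∈ (P1 : Subgroup H) := by
    rw [← hh, Sylow.coe_subgroup_smul]
    exact Subgroup.smul_mem_pointwise_smul _ (MulAut.conj h) _ (Subgroup.mem_zpowers g2)
  obtain ⟨i, hi⟩ := Subgroup.mem_zpowers_iff.1 (show h * g2 * h⁻¹ ∈ Subgroup.zpowers gH from hmem)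
  refine ⟨((h : G) * y : G), Subtype.mem _, ?_, i, ?_⟩
  · intro t ht
    have h7 : ((h : G) * y) • t = f t := by
      rw [mul_smul, hy t ht]
      exact (hH _).1 h.2 _ (hfD t ht)
    exact h7
  · have h5 := congrArg (fun z : H => ((z : G) : Equiv.Perm α)) hi
    simp only [Subgroup.coe_zpow, Subgroup.coe_mul, Subgroup.coe_inv, gH, g2] at h5
    rw [h5]
    simp only [Subgroup.coe_mul, mul_inv_rev, mul_assoc]

/-- a permutation commuting with `z` (`z` of prime order `p` with support of size `2p`) -/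
theorem commute_two {z v : Equiv.Perm α} {p : ℕ} (hp : p.Prime) (hz : orderOf z = p)
    (hs : z.support.card = 2 * p) (hv : v * z = z * v) {t : α} (ht : t ∈ z.support) :
    ∃ m : ℤ, (v ^ 2) t = (z ^ m) t := by
  classical
  haveI : Fact p.Prime := ⟨hp⟩
  have hcomm : Commute v z := hv
  have hc1 : ∀ (m : ℤ) (s : α), v ((z ^ m) s) = (z ^ m) (v s) := by
    intro m s
    have := hcomm.zpow_right m
    exact congrArg (fun σ : Equiv.Perm α => σ s) this
  have hvs : ∀ s ∈ z.support, v s ∈ z.support := by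
    intro s hs'
    rw [Equiv.Perm.mem_support] at hs' ⊢
    intro h
    have h1 : v (z s) = z (v s) := congrArg (fun σ : Equiv.Perm α => σ s) hv
    rw [h] at h1
    exact hs' (v.injective h1)
  have hO : ∀ s ∈ z.support, (z.cycleOf s).support.card = p := by
    intro s hs'
    have h1 : (z.cycleOf s).IsCycle := Equiv.Perm.isCycle_cycleOf z (Equiv.Perm.mem_support.mp hs')
    have h2 : (z.cycleOf s) ^ p = 1 := by
      ext u
      by_cases hu : z.SameCycle s u
      · have h3 : ((z.cycleOf s) ^ p) u = (z ^ p) u := by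
          rw [Equiv.Perm.SameCycle.cycleOf_eq hu] 
          exact Equiv.Perm.cycleOf_pow_apply_self z u p
        rw [h3, ← hz, pow_orderOf_eq_one]
      · have h3 : (z.cycleOf s) u = u := Equiv.Perm.cycleOf_apply_of_not_sameCycle hu
        rw [Equiv.Perm.pow_apply_eq_self_of_apply_eq_self h3]; rfl
    have h3 : orderOf (z.cycleOf s) = p := orderOf_eq_prime h2 h1.ne_one
    rw [← h1.orderOf, h3]
  have back : ∀ (i j : ℤ) (s w u : α), (z ^ i) s = u → (z ^ j) w = u → w = (z ^ (-j + i)) s := by
    intro i j s w u h1 h2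
    rw [zpow_add, Equiv.Perm.mul_apply, h1, ← h2, zpow_neg]
    exact (Equiv.symm_apply_apply (z ^ j) w).symm
  by_contra hcon
  push Not at hcon
  have hmem : ∀ s u : α, s ∈ z.support → (u ∈ (z.cycleOf s).support ↔ ∃ i : ℤ, (z ^ i) s = u) := by
    intro s u hs'
    rw [Equiv.Perm.mem_support_cycleOf_iff]
    exact ⟨fun h => h.1, fun h => ⟨h, hs'⟩⟩
  have ht1 := hvs t ht
  have ht2 := hvs _ ht1
  have hv2 : (v ^ 2) t = v (v t) := by rw [pow_two]; rfl
  -- if `v t` is in the orbit of `t` we are done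
  have hn1 : ∀ m : ℤ, v t ≠ (z ^ m) t := by
    intro m h
    apply hcon (m + m)
    rw [hv2, h, hc1, h, zpow_add]; rfl
  have hd12 : Disjoint (z.cycleOf t).support (z.cycleOf (v t)).support := by
    rw [Finset.disjoint_left]
    intro u h1 h2
    rw [hmem _ _ ht] at h1
    rw [hmem _ _ ht1] at h2
    obtain ⟨i, hi⟩ := h1
    obtain ⟨j, hj⟩ := h2
    exact hn1 _ (back i j _ _ u hi hj)
  have hd13 : Disjoint (z.cycleOf t).support (z.cycleOf (v (v t))).support := by
    rw [Finset.disjoint_left]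
    intro u h1 h2
    rw [hmem _ _ ht] at h1
    rw [hmem _ _ ht2] at h2
    obtain ⟨i, hi⟩ := h1
    obtain ⟨j, hj⟩ := h2
    exact hcon _ (hv2.trans (back i j _ _ u hi hj))
  have hd23 : Disjoint (z.cycleOf (v t)).support (z.cycleOf (v (v t))).support := by
    rw [Finset.disjoint_left]
    intro u h1 h2
    rw [hmem _ _ ht1] at h1
    rw [hmem _ _ ht2] at h2
    obtain ⟨i, hi⟩ := h1
    obtain ⟨j, hj⟩ := h2
    have h3 : v (v t) = v ((z ^ (-j + i)) t) := by
      rw [hc1]
      exact back i j _ _ u hi hj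
    exact hn1 _ (v.injective h3)
  have hsub : (z.cycleOf t).support ∪ (z.cycleOf (v t)).support ∪ (z.cycleOf (v (v t))).support ⊆ z.support := by
    apply Finset.union_subset
    · apply Finset.union_subset
      · exact Equiv.Perm.support_cycleOf_le z _
      · exact Equiv.Perm.support_cycleOf_le z _
    · exact Equiv.Perm.support_cycleOf_le z _
  have h5 := Finset.card_le_card hsub
  rw [Finset.card_union_of_disjoint (by rw [Finset.disjoint_union_left]; exact ⟨hd13, hd23⟩),
    Finset.card_union_of_disjoint hd12, hO _ ht, hO _ ht1, hO _ ht2, hs] at h5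
  have := hp.pos
  omega

end Cfsg.Agent.H11.Trouble
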