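import Cfsg.Agent.H11_Trouble2

set_option autoImplicit false

namespace Cfsg.Agent.H11.Trouble

open MulAction Equiv.Perm

variable {α : Type*} [Fintype α] [DecidableEq α]

theorem alt_of_25 (hα : Fintype.card α = 13) {H : Subgroup (Equiv.Perm α)}
    (hprim : IsPreprimitive H α) (h25 : 5 ^ 2 ∣ Nat.card H) : alternatingGroup α ≤ H := by
  classical
  haveI : Fact (Nat.Prime 5) := ⟨by norm_num⟩
  have hP : Nat.card (Equiv.Perm α) = 6227020800 := by
    rw [Nat.card_perm, Nat.card_eq_fintype_card, hα]; decide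
  have hfP : (Nat.card (Equiv.Perm α)).factorization 5 = 2 := by
    rw [hP]
    apply le_antisymm
    · by_contra hcon
      have := (Nat.Prime.pow_dvd_iff_le_factorization (p := 5) (k := 3) (n := 6227020800) (by norm_num) (by norm_num)).mpr (by omega)
      norm_num at this
    · exact (Nat.Prime.pow_dvd_iff_le_factorization (p := 5) (k := 2) (n := 6227020800) (by norm_num) (by norm_num)).mp (by norm_num)
  have hne : Nat.card H ≠ 0 := Nat.card_pos.ne'
  have hfH : (Nat.card H).factorization 5 = 2 := by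
    apply le_antisymm
    · rw [← hfP]
      exact (Nat.factorization_le_iff_dvd hne Nat.card_pos.ne').mpr (Subgroup.card_subgroup_dvd_card H) 5
    · exact (Nat.Prime.pow_dvd_iff_le_factorization (by norm_num) hne).mp h25
  obtain ⟨S⟩ : Nonempty (Sylow 5 H) := inferInstance
  have hS : Nat.card (S : Subgroup H) = 5 ^ 2 := by rw [S.card_eq_multiplicity, hfH]
  let S' : Sylow 5 (Equiv.Perm α) := Sylow.ofCard ((S : Subgroup H).map H.subtype) (by
    rw [Subgroup.card_map_of_injective H.subtype_injective, hS, hfP])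
  obtain ⟨w, hw⟩ := (Equiv.Perm.exists_with_cycleType_iff α (m := {5})).mpr
    ⟨by rw [Multiset.sum_singleton]; omega, by simp⟩
  have hwc : w.IsCycle := by rw [← Equiv.Perm.card_cycleType_eq_one, hw]; rfl
  have hws : w.support.card = 5 := by rw [← Equiv.Perm.sum_cycleType, hw, Multiset.sum_singleton]
  have hwo : orderOf w = 5 := by rw [hwc.orderOf, hws]
  have hwp : IsPGroup 5 (Subgroup.zpowers w) := IsPGroup.of_card (n := 1) (by
    rw [Nat.card_zpowers, hwo, pow_one])
  obtain ⟨Q, hQ⟩ := hwp.exists_le_sylow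
  obtain ⟨g, hg⟩ := MulAction.exists_smul_eq (Equiv.Perm α) Q S'
  have hmem : g * w * g⁻¹ ∈ (S' : Subgroup (Equiv.Perm α)) := by
    rw [← hg, Sylow.coe_subgroup_smul]
    exact Subgroup.smul_mem_pointwise_smul _ (MulAut.conj g) _ (hQ (Subgroup.mem_zpowers w))
  have hmemH : g * w * g⁻¹ ∈ H := by
    obtain ⟨s, -, hs⟩ := Subgroup.mem_map.mp (show g * w * g⁻¹ ∈ (S : Subgroup H).map H.subtype from hmem)
    rw [← hs]; exact s.2
  exact H9.Jordan.alternatingGroup_le_of_isCycle_mem H hprim (p := 5) (by norm_num) (by omega)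
    (hwc.conj (g := g)) (by rw [Equiv.Perm.card_support_conj, hws]) hmemH

theorem zmod11 : ∀ j : ZMod 11, j ≠ 0 → -j ≠ j := by decide

theorem five_dvd {H : Subgroup (Equiv.Perm α)} (hα : Fintype.card α = 13) (hle : H ≤ alternatingGroup α)
    {x : Equiv.Perm α} (hx : x ∈ H) (hxc : x.IsCycle) (hxs : x.support.card = 11)
    (h3 : IsMultiplyPretransitive H α 3) : 5 ∣ Nat.card (loc H x.support) := by
  classical
  haveI : Fact (Nat.Prime 11) := ⟨by norm_num⟩
  by_contra h5
  set Γ := {t // t ∈ x.support} with hΓ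
  set N := loc H x.support with hN
  have hΓc : Fintype.card Γ = 11 := by rw [Fintype.card_coe, hxs]
  have hmaps : ∀ t : α, x t ∈ x.support ↔ t ∈ x.support := fun t => Equiv.Perm.apply_mem_support
  have hxof : Equiv.Perm.ofSubtype (x.subtypePerm hmaps) = x := by
    refine Equiv.Perm.ofSubtype_subtypePerm hmaps ?_
    intro t ht
    exact Equiv.Perm.mem_support.mpr ht
  have hx' : x.subtypePerm hmaps ∈ N := by rw [hN, mem_loc, hxof]; exact hx
  haveI htr : IsPretransitive N Γ := by
    refine ⟨fun a b => ?_⟩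
    obtain ⟨i, hi⟩ := hxc.exists_zpow_eq (Equiv.Perm.mem_support.mp a.2) (Equiv.Perm.mem_support.mp b.2)
    refine ⟨⟨(x.subtypePerm hmaps) ^ i, Subgroup.zpow_mem _ hx' i⟩, ?_⟩
    change ((x.subtypePerm hmaps) ^ i) a = b
    apply Subtype.ext
    have h9 : Equiv.Perm.ofSubtype ((x.subtypePerm hmaps) ^ i) (a : α) = (x ^ i) (a : α) := by
      rw [map_zpow, hxof]
    rw [← hi, ← h9, Equiv.Perm.ofSubtype_apply_coe]
  obtain ⟨P⟩ : Nonempty (Sylow 11 N) := inferInstance
  obtain ⟨d, n, hd, hn, hnorm, hcard, -⟩ := H9.PrimeNorm.exists_params (p := 11) hΓc (G := N) P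
  have hd5 : ¬ 5 ∣ d := by
    intro h
    apply h5
    rw [hcard]
    exact (h.mul_left 11).mul_right n
  have hd' : d = 1 ∨ d = 2 := by
    have h10 : d ∣ 10 := hd
    have : d ≤ 10 := Nat.le_of_dvd (by norm_num) h10
    interval_cases d <;> simp_all
  rcases hd' with rfl | rfl
  · -- sharply 3-transitive
    have hN11 := H9.PermIndex.card_of_self_normalizing (p := 11) hΓc (G := N) P (by rw [hnorm])
    have h2 : IsMultiplyPretransitive H α 2 := isMultiplyPretransitive_of_le (n := 3) (by omega)
      (by rw [Nat.card_eq_fintype_card]; omega)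
    have hc := card_loc h2 (S := x.support) (by rw [hxs, hα])
    have hc' : Nat.card N = 11 := hN11
    rw [← hN, hc', hα] at hc
    obtain ⟨r, j, hr, hj⟩ := sharp3 h3 (by omega) (by rw [hα, hc]; decide)
    exact not_prime_power_twelve (j := j) hr (by omega)
  · -- an odd involution
    obtain ⟨σ, t, e, he1, he2, ho, ht2⟩ := H9.Burnside.exists_coord_inv (p := 11) hΓc (by norm_num)
      (G := N) P (by rw [hnorm]; decide)
    have hto : orderOf ((t : N) : Equiv.Perm Γ) = 2 := by rw [Subgroup.orderOf_coe]; exact ht2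
    have hsupp : ((t : N) : Equiv.Perm Γ).support = Finset.univ.erase (e 0) := by
      ext u
      rw [Equiv.Perm.mem_support, Finset.mem_erase]
      obtain ⟨j, rfl⟩ := e.surjective u
      have h1 : ((t : N) : Equiv.Perm Γ) (e j) = e (-j) := (he2 j).symm
      rw [h1, e.injective.ne_iff, e.injective.ne_iff]
      constructor
      · intro h
        refine ⟨?_, Finset.mem_univ _⟩
        rintro rfl
        exact h neg_zero
      · rintro ⟨h, -⟩
        exact zmod11 j h
    have hsc : ((t : N) : Equiv.Perm Γ).support.card = 10 := by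
      rw [hsupp, Finset.card_erase_of_mem (Finset.mem_univ _), Finset.card_univ, hΓc]
    obtain ⟨k, hk⟩ := Equiv.Perm.cycleType_prime_order (σ := ((t : N) : Equiv.Perm Γ)) (by rw [hto]; norm_num)
    rw [hto] at hk
    have hk5 : k + 1 = 5 := by
      have := Equiv.Perm.sum_cycleType ((t : N) : Equiv.Perm Γ)
      rw [hk, Multiset.sum_replicate, hsc, smul_eq_mul] at this
      omega
    have hsign : sign ((t : N) : Equiv.Perm Γ) = -1 := by
      rw [Equiv.Perm.sign_of_cycleType, hk, hk5]
      decide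
    have h1 : Equiv.Perm.ofSubtype ((t : N) : Equiv.Perm Γ) ∈ alternatingGroup α := hle t.2
    rw [Equiv.Perm.mem_alternatingGroup, Equiv.Perm.sign_ofSubtype, hsign] at h1
    exact absurd h1 (by decide)

theorem three_cycle_of (hα : Fintype.card α = 13) {H : Subgroup (Equiv.Perm α)}
    (h3 : IsMultiplyPretransitive H α 3) (h25 : ¬ 5 ^ 2 ∣ Nat.card H) {z : Equiv.Perm α} (hz : z ∈ H)
    (hzo : orderOf z = 5) (hzs : z.support.card = 10) : ∃ w ∈ H, w.IsThreeCycle := by
  classical
  have hD : (z.support)ᶜ.card = 3 := by rw [Finset.card_compl, hα, hzs]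
  obtain ⟨a, b, c, hab, hac, hbc, hDe⟩ := Finset.card_eq_three.1 hD
  set f : Equiv.Perm α := Equiv.swap a b * Equiv.swap b c with hf
  have hfa : f a = b := by
    rw [hf, Equiv.Perm.mul_apply, Equiv.swap_apply_of_ne_of_ne hab hac, Equiv.swap_apply_left]
  have hfb : f b = c := by
    rw [hf, Equiv.Perm.mul_apply, Equiv.swap_apply_left, Equiv.swap_apply_of_ne_of_ne hac.symm hbc.symm]
  have hfc : f c = a := by
    rw [hf, Equiv.Perm.mul_apply, Equiv.swap_apply_right, Equiv.swap_apply_right]
  have hfD : ∀ t ∈ (z.support)ᶜ, f t ∈ (z.support)ᶜ := by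
    intro t ht
    rw [hDe] at ht ⊢
    simp only [Finset.mem_insert, Finset.mem_singleton] at ht ⊢
    rcases ht with rfl | rfl | rfl
    · rw [hfa]; simp
    · rw [hfb]; simp
    · rw [hfc]; simp
  obtain ⟨u, hu, huf, i, hui⟩ := witt (G := H) (g := z) (p := 5) (by norm_num) (by rw [hD]; exact h3) hzo hz
    h25 f f.injective.injOn hfD
  refine ⟨u ^ 40, Subgroup.pow_mem _ hu _, ?_⟩
  -- `u ^ 4` commutes with `z`
  have hpow : ∀ k : ℕ, u ^ k * z * (u ^ k)⁻¹ = z ^ (i ^ k) := by
    intro k
    induction k with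
    | zero => simp
    | succ k ih =>
      have h1 : u ^ (k + 1) * z * (u ^ (k + 1))⁻¹ = u ^ k * (u * z * u⁻¹) * (u ^ k)⁻¹ := by
        rw [pow_succ]; group
      rw [h1, hui, ← conj_zpow, ih, ← zpow_mul, pow_succ]
  have hi5 : ¬ (5 : ℤ) ∣ i := by
    intro h
    obtain ⟨k, hk⟩ := h
    have h1 : z ^ i = 1 := by
      rw [hk, zpow_mul]
      have : z ^ (5 : ℤ) = 1 := by
        have := pow_orderOf_eq_one z
        rw [hzo] at this
        exact_mod_cast this
      rw [this, one_zpow]
    rw [h1] at hui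
    have h2 : z = 1 := by
      have : u * z = u := by rw [mul_inv_eq_one] at hui; exact hui
      simpa using this
    rw [h2, orderOf_one] at hzo
    omega
  have h4 : (u ^ 4) * z = z * (u ^ 4) := by
    have h1 := hpow 4
    have h2 : z ^ (i ^ 4) = z := by
      have h3 : (5 : ℤ) ∣ i ^ 4 - 1 := by
        have h6 : i % 5 = 1 ∨ i % 5 = 2 ∨ i % 5 = 3 ∨ i % 5 = 4 := by omega
        have h7 : i ^ 4 % 5 = 1 := by
          rcases h6 with h | h | h | h <;> norm_num [pow_succ, Int.mul_emod, h]
        omega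
      obtain ⟨k, hk⟩ := h3
      have h8 : i ^ 4 = 5 * k + 1 := by omega
      rw [h8, zpow_add, zpow_mul, zpow_one]
      have : z ^ (5 : ℤ) = 1 := by
        have := pow_orderOf_eq_one z
        rw [hzo] at this
        exact_mod_cast this
      rw [this, one_zpow, one_mul]
    rw [h2] at h1
    rw [mul_inv_eq_iff_eq_mul] at h1
    exact h1
  -- action on the support of `z`
  have hout : ∀ t ∈ z.support, (u ^ 40) t = t := by
    intro t ht
    obtain ⟨m, hm⟩ := commute_two (p := 5) (by norm_num) hzo (by rw [hzs]) h4 ht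
    have hcomm : Commute (u ^ 4) z := h4
    have hc1 : ∀ (m : ℤ) (s : α), ((u ^ 4) ^ 2) ((z ^ m) s) = (z ^ m) (((u ^ 4) ^ 2) s) := by
      intro m s
      have := (hcomm.pow_left 2).zpow_right m
      exact congrArg (fun σ : Equiv.Perm α => σ s) this
    have hind : ∀ k : ℕ, (((u ^ 4) ^ 2) ^ k) t = (z ^ (m * k)) t := by
      intro k
      induction k with
      | zero => simp
      | succ k ih =>
        rw [pow_succ', Equiv.Perm.mul_apply, ih, hc1, hm, ← Equiv.Perm.mul_apply, ← zpow_add]
        congr 2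
        push_cast; ring
    have h5 := hind 5
    rw [← pow_mul, ← pow_mul] at h5
    have h6 : z ^ (m * ((5 : ℕ) : ℤ)) = 1 := by
      rw [mul_comm, zpow_mul]
      have : z ^ (((5 : ℕ) : ℤ)) = 1 := by
        have := pow_orderOf_eq_one z
        rw [hzo] at this
        exact_mod_cast this
      rw [this, one_zpow]
    rw [h6] at h5
    exact h5
  -- action on `a, b, c`
  have hua : u a = b := by rw [huf a (by rw [hDe]; simp), hfa]
  have hub : u b = c := by rw [huf b (by rw [hDe]; simp), hfb]
  have huc : u c = a := by rw [huf c (by rw [hDe]; simp), hfc]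
  have hu3 : ∀ t, t = a ∨ t = b ∨ t = c → (u ^ 3) t = t := by
    rintro t (rfl | rfl | rfl)
    · rw [pow_succ, pow_two, Equiv.Perm.mul_apply, Equiv.Perm.mul_apply, hua, hub, huc]
    · rw [pow_succ, pow_two, Equiv.Perm.mul_apply, Equiv.Perm.mul_apply, hub, huc, hua]
    · rw [pow_succ, pow_two, Equiv.Perm.mul_apply, Equiv.Perm.mul_apply, huc, hua, hub]
  have hin : ∀ t, t = a ∨ t = b ∨ t = c → (u ^ 40) t = u t := by
    intro t ht
    have h7 : ((u ^ 3) ^ 13) t = t := Equiv.Perm.pow_apply_eq_self_of_apply_eq_self (hu3 t ht) 13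
    have h8 : u ^ 40 = u * (u ^ 3) ^ 13 := by rw [← pow_mul, ← pow_succ']
    rw [h8, Equiv.Perm.mul_apply, h7]
  rw [← card_support_eq_three_iff]
  have hsupp : (u ^ 40).support = {a, b, c} := by
    ext t
    rw [Equiv.Perm.mem_support]
    simp only [Finset.mem_insert, Finset.mem_singleton]
    constructor
    · intro h
      by_contra hcon
      apply h
      apply hout
      by_contra hts
      apply hcon
      have : t ∈ (z.support)ᶜ := Finset.mem_compl.mpr hts
      rw [hDe] at this
      simpa using this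
    · intro h
      rw [hin t h]
      rcases h with rfl | rfl | rfl
      · rw [hua]; exact hab.symm
      · rw [hub]; exact hbc.symm
      · rw [huc]; exact hac
  rw [hsupp, ← hDe, hD]

theorem thirteen (hα : Fintype.card α = 13) {x y : Equiv.Perm α} (hx : orderOf x = 11)
    (hy : orderOf y = 13) (hxs : sign x = 1) (hys : sign y = 1) :
    Subgroup.closure ({x, y} : Set (Equiv.Perm α)) = alternatingGroup α := by
  classical
  set H := Subgroup.closure ({x, y} : Set (Equiv.Perm α)) with hH
  have hym : y ∈ H := Subgroup.subset_closure (by simp)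
  have hxm : x ∈ H := Subgroup.subset_closure (by simp)
  obtain ⟨hxc, hxp⟩ := Cyc.cycle_of_order (by norm_num) hx (by omega)
  obtain ⟨hyc, hyq⟩ := Cyc.cycle_of_order (by norm_num) hy (by omega)
  have htr := Cyc.trans_of_two (by norm_num) hx hyc hyq (by omega)
    (cover_of_full (by rw [hyq, hα]))
  have hprim := Cyc.prim_of_cycle htr (by norm_num) (by omega) hyc hyq hym
  have h3 : IsMultiplyPretransitive H α 3 := mt3 hprim (by norm_num) hxc hxp hxm (by omega)
  have hle := Cyc.closure_le_alt hxs hys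
  apply le_antisymm hle
  by_cases h25 : 5 ^ 2 ∣ Nat.card H
  · exact alt_of_25 hα hprim h25
  have h5 := five_dvd hα hle hxm hxc hxp h3
  haveI : Fact (Nat.Prime 5) := ⟨by norm_num⟩
  obtain ⟨z', hz'⟩ := exists_prime_orderOf_dvd_card' (G := loc H x.support) 5 h5
  have hz'o : orderOf ((z' : loc H x.support) : Equiv.Perm {t // t ∈ x.support}) = 5 := by
    rw [Subgroup.orderOf_coe]; exact hz'
  set z := Equiv.Perm.ofSubtype ((z' : loc H x.support) : Equiv.Perm {t // t ∈ x.support}) with hz
  have hzH : z ∈ H := z'.2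
  have hzo : orderOf z = 5 := by
    rw [hz, orderOf_injective _ Equiv.Perm.ofSubtype_injective]; exact hz'o
  have hzs : z.support.card ≤ 11 := by
    have : z.support ⊆ x.support := by
      intro t ht
      rw [Equiv.Perm.mem_support] at ht
      by_contra hcon
      exact ht (Equiv.Perm.ofSubtype_apply_of_not_mem _ hcon)
    rw [← hxp]
    exact Finset.card_le_card this
  obtain ⟨k, hk⟩ := Equiv.Perm.cycleType_prime_order (σ := z) (by rw [hzo]; norm_num)
  rw [hzo] at hk
  have hsum := Equiv.Perm.sum_cycleType z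
  rw [hk, Multiset.sum_replicate, smul_eq_mul] at hsum
  have hk01 : k = 0 ∨ k = 1 := by omega
  rcases hk01 with rfl | rfl
  · have hzc : z.IsCycle := by
      rw [← Equiv.Perm.card_cycleType_eq_one, hk]; rfl
    exact H9.Jordan.alternatingGroup_le_of_isCycle_mem H hprim (p := 5) (by norm_num) (by omega) hzc
      (by omega) hzH
  · obtain ⟨w, hw, hw3⟩ := three_cycle_of hα h3 h25 hzH hzo (by omega)
    exact Equiv.Perm.alternatingGroup_le_of_isPreprimitive_of_isThreeCycle_mem hprim hw3 hw

end Cfsg.Agent.H11.Trouble
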