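import Cfsg.Agent.H11_Trouble3

set_option autoImplicit false

namespace Cfsg.Agent.H11.Trouble

open MulAction Equiv.Perm

theorem iso_five_aux {K Ω : Type*} [Group K] [Finite K] [Fintype Ω] [MulAction K Ω]
    [IsPretransitive K Ω] (hΩ : Fintype.card Ω = 6) (hK : Nat.card K = 360) (ω : Ω)
    (hinj : ∀ g : K, (∀ t : Ω, g • t = t) → g = 1) :
    Nonempty (stabilizer K ω ≃* alternatingGroup (Fin 5)) := by
  classical
  have hc : Fintype.card (SubMulAction.ofStabilizer K ω) = 5 := by
    have := SubMulAction.nat_card_ofStabilizer_add_one_eq K ω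
    rw [Nat.card_eq_fintype_card, Nat.card_eq_fintype_card] at this
    omega
  let ψ := MulAction.toPermHom (stabilizer K ω) (SubMulAction.ofStabilizer K ω)
  have hψ : Function.Injective ψ := by
    rw [injective_iff_map_eq_one]
    intro g hg
    apply Subtype.ext
    apply hinj
    intro t
    by_cases ht : t = ω
    · rw [ht]; exact g.2
    · have := congrArg (fun σ : Equiv.Perm (SubMulAction.ofStabilizer K ω) =>
        ((σ ⟨t, by rw [SubMulAction.mem_ofStabilizer_iff]; exact ht⟩ : SubMulAction.ofStabilizer K ω) : Ω)) hg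
      exact this
  have hcard : Nat.card (stabilizer K ω) = 60 := by
    have h1 := Subgroup.card_mul_index (stabilizer K ω)
    rw [MulAction.index_stabilizer_of_transitive, Nat.card_eq_fintype_card (α := Ω), hΩ, hK] at h1
    omega
  have hrc : Nat.card ψ.range = 60 := by
    rw [← hcard]
    exact Nat.card_congr (MonoidHom.ofInjective hψ).toEquiv.symm
  have hri : ψ.range.index = 2 := by
    have h1 := Subgroup.card_mul_index ψ.range
    rw [hrc, Nat.card_perm, Nat.card_eq_fintype_card, hc] at h1
    have : (5 : ℕ).factorial = 120 := by decide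
    omega
  have hra : ψ.range = alternatingGroup _ := Equiv.Perm.eq_alternatingGroup_of_index_eq_two hri
  have e1 : stabilizer K ω ≃* ψ.range := MonoidHom.ofInjective hψ
  have e2 : ψ.range ≃* alternatingGroup (SubMulAction.ofStabilizer K ω) := MulEquiv.subgroupCongr hra
  have e3 : alternatingGroup (SubMulAction.ofStabilizer K ω) ≃* alternatingGroup (Fin 5) :=
    Equiv.altCongrHom (Fintype.equivFinOfCardEq hc)
  exact ⟨(e1.trans e2).trans e3⟩

/-- subgroups of index 6 of a simple group of order 360 are `A₅`. -/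
theorem iso_five {K : Type*} [Group K] [Finite K] [IsSimpleGroup K] (hK : Nat.card K = 360)
    (H : Subgroup K) (hH : H.index = 6) : Nonempty (H ≃* alternatingGroup (Fin 5)) := by
  classical
  haveI : Fintype (K ⧸ H) := Fintype.ofFinite _
  have hst : stabilizer K ((1 : K) : K ⧸ H) = H := MulAction.stabilizer_quotient H
  have hinj : ∀ g : K, (∀ t : K ⧸ H, g • t = t) → g = 1 := by
    intro g hg
    have h1 : (MulAction.toPermHom K (K ⧸ H)).ker = ⊥ := by
      rw [← Subgroup.normalCore_eq_ker]
      rcases (inferInstance : H.normalCore.Normal).eq_bot_or_eq_top with h | h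
      · exact h
      · exfalso
        have h2 : H = ⊤ := top_le_iff.1 (h ▸ Subgroup.normalCore_le H)
        rw [h2, Subgroup.index_top] at hH
        omega
    have h2 : g ∈ (MulAction.toPermHom K (K ⧸ H)).ker := by
      rw [MonoidHom.mem_ker]
      ext t
      exact hg t
    rw [h1] at h2
    exact Subgroup.mem_bot.mp h2
  haveI : IsPretransitive K (K ⧸ H) := inferInstance
  obtain ⟨e⟩ := iso_five_aux (K := K) (Ω := K ⧸ H) (by
    rw [← Nat.card_eq_fintype_card, ← Subgroup.index_eq_card, hH]) hK ((1 : K) : K ⧸ H) hinj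
  exact ⟨(MulEquiv.subgroupCongr hst.symm).trans e⟩

variable {α : Type*} [Fintype α] [DecidableEq α]

theorem mt2 {G : Subgroup (Equiv.Perm α)} (hG : IsPreprimitive G α) {p : ℕ} (hp : p.Prime)
    {g : Equiv.Perm α} (hgc : g.IsCycle) (hgp : g.support.card = p) (hg : g ∈ G)
    (hcard : Fintype.card α = p + 1) (hp2 : 2 < p) : IsMultiplyPretransitive G α 2 := by
  have h2 := Cyc.fs_trans_prime hp hgc hgp hg
  have h3 := hG.isMultiplyPreprimitive (s := ((g.support : Set α)ᶜ)) (n := 0) (by
    rw [← Finset.coe_compl, Set.ncard_coe_finset, Finset.card_compl, hgp, hcard]; omega) (by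
    rw [Nat.card_eq_fintype_card]; omega) h2
  exact h3.isMultiplyPretransitive

theorem sharp2 {G : Type*} [Group G] [MulAction G α] [FaithfulSMul G α]
    (h2 : IsMultiplyPretransitive G α 2)
    (hα : 2 ≤ Fintype.card α) (hcard : Nat.card G = (Fintype.card α).descFactorial 2) :
    ∃ r j : ℕ, r.Prime ∧ Fintype.card α = r ^ j := by
  classical
  obtain ⟨r, j, hr, hj, hrj, -⟩ := H9.Sharp2.main (G := G) (α := α) h2 (by
      intro x
      have h4 := card_fix h2 x
      rw [hcard] at h4
      have hpos : 0 < (Fintype.card α).descFactorial 2 := Nat.descFactorial_pos.2 hα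
      have h5 : Nat.card {g : G // ∀ i, g • x i = x i} = 1 :=
        Nat.eq_of_mul_eq_mul_left hpos (by rw [← h4, mul_one])
      rw [Nat.card_eq_one_iff_unique] at h5
      haveI := h5.1
      rw [eq_bot_iff]
      intro g hg
      rw [mem_stabilizer_iff] at hg
      rw [Subgroup.mem_bot]
      have e1 : (⟨g, fun i => congrArg (fun q : Fin 2 ↪ α => q i) hg⟩ :
        {g : G // ∀ i, g • x i = x i}) = ⟨1, fun i => one_smul _ _⟩ := Subsingleton.elim _ _
      exact congrArg Subtype.val e1) hα
  exact ⟨r, j, hr, hrj⟩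

theorem six (hα : Fintype.card α = 6) {x y : Equiv.Perm α} (hx : orderOf x = 3)
    (hy : orderOf y = 5) (hxs : sign x = 1) (hys : sign y = 1) (hcov : ∀ i, x i ≠ i ∨ y i ≠ i) :
    Subgroup.closure ({x, y} : Set (Equiv.Perm α)) = alternatingGroup α ∨
    Nonempty (Subgroup.closure ({x, y} : Set (Equiv.Perm α)) ≃* alternatingGroup (Fin 5)) := by
  classical
  set H := Subgroup.closure ({x, y} : Set (Equiv.Perm α)) with hH
  have hym : y ∈ H := Subgroup.subset_closure (by simp)
  have hxm : x ∈ H := Subgroup.subset_closure (by simp)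
  obtain ⟨hyc, hyq⟩ := Cyc.cycle_of_order (by norm_num) hy (by omega)
  have htr := Cyc.trans_of_two (by norm_num) hx hyc hyq (by omega) hcov
  have hprim := Cyc.prim_of_cycle htr (by norm_num) (by omega) hyc hyq hym
  have h2 : IsMultiplyPretransitive H α 2 := mt2 hprim (by norm_num) hyc hyq hym (by omega) (by norm_num)
  have hle := Cyc.closure_le_alt hxs hys
  obtain ⟨x0⟩ : Nonempty (Fin 2 ↪ α) := Function.Embedding.nonempty_of_card_le (by
    rw [Fintype.card_fin]; omega)
  have hc := card_fix h2 x0
  rw [hα] at hc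
  have e1 : (6 : ℕ).descFactorial 2 = 30 := by decide
  rw [e1] at hc
  set m := Nat.card {g : H // ∀ i, g • x0 i = x0 i} with hm
  have hm1 : m ≠ 1 := by
    intro h
    obtain ⟨r, j, hr, hj⟩ := sharp2 h2 (by omega) (by rw [hα, e1, hc, h])
    exact not_prime_power_six (j := j) hr (by omega)
  have hm0 : m ≠ 0 := by
    intro h
    rw [h] at hc
    exact Nat.card_pos.ne' hc
  haveI hsimp : IsSimpleGroup (alternatingGroup α) := alternatingGroup.isSimpleGroup (by
    rw [Nat.card_eq_fintype_card]; omega)
  haveI : Nontrivial α := Fintype.one_lt_card_iff_nontrivial.mp (by omega)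
  have hA : Nat.card (alternatingGroup α) = 360 := by
    have := nat_card_alternatingGroup (α := α)
    rw [Nat.card_eq_fintype_card (α := α), hα] at this
    rw [this]; decide
  by_cases h4 : H.subgroupOf (alternatingGroup α) = ⊤
  · left
    rw [Subgroup.subgroupOf_eq_top] at h4
    exact le_antisymm hle h4
  right
  have h5 := H9.PermIndex.card_dvd_factorial _ h4
  rw [hA] at h5
  have h6 := Subgroup.card_mul_index (H.subgroupOf (alternatingGroup α))
  have h7 : Nat.card (H.subgroupOf (alternatingGroup α)) = Nat.card H :=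
    Nat.card_congr (Subgroup.subgroupOfEquivOfLe hle).toEquiv
  rw [h7, hc, hA] at h6
  set i := (H.subgroupOf (alternatingGroup α)).index with hi
  have h8 : i ≤ 6 := by
    by_contra hcon
    have : 30 * 2 * 7 ≤ 30 * m * i := Nat.mul_le_mul (Nat.mul_le_mul_left _ (by omega)) (by omega)
    omega
  have h9 : i = 6 := by
    have h10 : ¬ i ≤ 5 := by
      intro h
      have h11 := Nat.le_of_dvd (Nat.factorial_pos i) h5
      have h12 := Nat.factorial_le h
      have : (5 : ℕ).factorial = 120 := by decide
      omega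
    omega
  obtain ⟨e⟩ := iso_five hA (H.subgroupOf (alternatingGroup α)) (by rw [← hi, h9])
  exact ⟨(Subgroup.subgroupOfEquivOfLe hle).symm.trans e⟩

end Cfsg.Agent.H11.Trouble
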