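import Cfsg.Agent.H22_Gen
import Cfsg.Agent.H1_Coprime2
import Cfsg.Agent.H22_Basic

set_option autoImplicit false
set_option linter.all false

/-!
Fixed points of `B` on `Y = [Y, A]`, `B ≤ A` abelian, acting coprimely.
-/

namespace Cfsg.Agent.H12.CFP

open Subgroup
open scoped commutatorElement
open Cfsg.Agent

universe u

/-- `B₀ ≤ B` with cyclic factor. -/
def Cyc {G : Type u} [Group G] (B₀ B : Subgroup G) : Prop :=
  B₀ ≤ B ∧ ∃ b ∈ B, B₀ ⊔ zpowers b = B

/-- the hypotheses -/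
structure Hyp {G : Type u} [Group G] (A B Y : Subgroup G) : Prop where
  comm : ∀ a ∈ A, ∀ b ∈ A, a * b = b * a
  le : B ≤ A
  norm : A ≤ normalizer (Y : Set G)
  cop : (Nat.card A).Coprime (Nat.card Y)
  sol : Group.IsSolvable Y
  eq : ⁅Y, A⁆ = Y

/-- `L` contains the pieces -/
def Pr {G : Type u} [Group G] (A B Y L : Subgroup G) : Prop :=
  ∀ B₀, Cyc B₀ B → Y ⊓ centralizer (B : Set G) ⊓ ⁅Y ⊓ centralizer (B₀ : Set G), A⁆ ≤ L

section
variable {G : Type u} [Group G]

theorem lift_fixed [Finite G] {B R N Y : Subgroup G} (hN : N.Normal)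
    (hBR : B ≤ normalizer (R : Set G)) (hRY : R ≤ Y)
    (hcop : (Nat.card B).Coprime (Nat.card Y)) (hs : Group.IsSolvable B) {x : G} (hx : x ∈ R)
    (hfix : ∀ b ∈ B, x⁻¹ * (b * x * b⁻¹) ∈ N) :
    ∃ c ∈ R ⊓ centralizer (B : Set G), x⁻¹ * c ∈ N := by
  obtain ⟨d, hd, h⟩ := H1.Coprime.exists_mul_mem_centralizer (A := B) (D := R ⊓ N)
    (H22.Basic.le_normalizer_inf hBR (by rw [normalizer_eq_top]; exact le_top))
    (hcop.coprime_dvd_right (card_dvd_of_le (inf_le_left.trans hRY))) (Or.inl hs) x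
    (fun b hb => ⟨R.mul_mem (R.inv_mem hx) ((mem_normalizer_iff.1 (hBR hb) _).1 hx), hfix b hb⟩)
  exact ⟨x * d, ⟨R.mul_mem hx hd.1, h⟩, by simpa using hd.2⟩

theorem Hyp.solA {A B Y : Subgroup G} (h : Hyp A B Y) {C : Subgroup G} (hC : C ≤ A) : Group.IsSolvable C :=
  Group.isSolvable_of_comm (fun a b => Subtype.ext (h.comm a (hC a.2) b (hC b.2)))

theorem Hyp.cent {A B Y : Subgroup G} (h : Hyp A B Y) : A ≤ centralizer (A : Set G) := fun a ha => by
  rw [mem_centralizer_iff]; exact fun b hb => h.comm b hb a ha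

/-- `A` normalises `C(C)` for `C ≤ A`. -/
theorem Hyp.ncent {A B Y : Subgroup G} (h : Hyp A B Y) {C : Subgroup G} (hC : C ≤ A) :
    A ≤ normalizer (centralizer (C : Set G) : Set G) :=
  H22.Basic.le_normalizer_centralizer ((h.cent.trans (centralizer_le hC)).trans (centralizer_le_normalizer _))

theorem Hyp.nX {A B Y : Subgroup G} (h : Hyp A B Y) {C U : Subgroup G} (hC : C ≤ A) (hU : A ≤ normalizer (U : Set G)) :
    A ≤ normalizer ((U ⊓ centralizer (C : Set G) : Subgroup G) : Set G) :=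
  H22.Basic.le_normalizer_inf hU (h.ncent hC)

theorem quot [Finite G] {A B Y L N : Subgroup G} (h : Hyp A B Y) (hL : Pr A B Y L) (hN : N.Normal) (hNY : N ≤ Y) :
    Pr (A.map (QuotientGroup.mk' N)) (B.map (QuotientGroup.mk' N)) (Y.map (QuotientGroup.mk' N))
      (L.map (QuotientGroup.mk' N)) ∧
    Hyp (A.map (QuotientGroup.mk' N)) (B.map (QuotientGroup.mk' N)) (Y.map (QuotientGroup.mk' N)) := by
  set π := QuotientGroup.mk' N with hπ
  have hker : ∀ {x y : G}, π x = π y ↔ x⁻¹ * y ∈ N := fun {x y} => QuotientGroup.eq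
  have hAN : A ⊓ N = ⊥ := by
    exact H22.Basic.inf_eq_bot_of_coprime (h.cop.coprime_dvd_right (card_dvd_of_le hNY))
  refine ⟨?_, ?_⟩
  · rintro B₁ ⟨hB₁, b', hb', e⟩
    obtain ⟨b, hb, rfl⟩ := mem_map.1 hb'
    set B₀ : Subgroup G := B ⊓ B₁.comap π with hB₀
    have hmap : B₀.map π = B₁ := by
      apply le_antisymm
      · rintro _ ⟨x, hx, rfl⟩
        exact hx.2
      · intro y hy
        obtain ⟨x, hx, rfl⟩ := mem_map.1 (hB₁ hy)
        exact mem_map.2 ⟨x, ⟨hx, hy⟩, rfl⟩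
    have hB₀B : B₀ ≤ B := inf_le_left
    have hcyc : Cyc B₀ B := by
      refine ⟨hB₀B, b, hb, le_antisymm (sup_le hB₀B (zpowers_le.2 hb)) ?_⟩
      intro x hx
      have h1 : π x ∈ (B₀ ⊔ zpowers b).map π := by
        rw [Subgroup.map_sup, hmap, MonoidHom.map_zpowers, e]
        exact mem_map_of_mem _ hx
      obtain ⟨z, hz, hzx⟩ := mem_map.1 h1
      have h2 : z⁻¹ * x ∈ N := hker.1 hzx
      have hzB : z ∈ B := (sup_le hB₀B (zpowers_le.2 hb)) hz
      have h3 : z⁻¹ * x ∈ A ⊓ N := ⟨h.le (mul_mem (inv_mem hzB) hx), h2⟩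
      rw [hAN, mem_bot, inv_mul_eq_one] at h3
      rw [← h3]; exact hz
    have hX : Y.map π ⊓ centralizer (B₁ : Set (G ⧸ N)) ≤ (Y ⊓ centralizer (B₀ : Set G)).map π := by
      rintro _ ⟨⟨x, hx, rfl⟩, hc⟩
      obtain ⟨c, hc1, hc2⟩ := lift_fixed hN ((hB₀B.trans h.le).trans h.norm) le_rfl
        (h.cop.coprime_dvd_left (card_dvd_of_le (hB₀B.trans h.le))) (h.solA (hB₀B.trans h.le)) hx (by
          intro b₀ hb₀
          rw [← hker]
          have h4 := mem_centralizer_iff.1 hc (π b₀) (by rw [← hmap]; exact mem_map_of_mem _ hb₀)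
          rw [map_mul, map_mul, map_inv, h4, mul_inv_cancel_right])
      exact mem_map.2 ⟨c, hc1, (hker.2 hc2).symm⟩
    have hXc : ⁅Y.map π ⊓ centralizer (B₁ : Set (G ⧸ N)), A.map π⁆ ≤ (⁅Y ⊓ centralizer (B₀ : Set G), A⁆).map π := by
      rw [map_commutator]
      exact commutator_mono hX le_rfl
    rintro x' ⟨⟨-, hx2⟩, hx3⟩
    obtain ⟨x, hx, rfl⟩ := mem_map.1 (hXc hx3)
    have hRn : A ≤ normalizer ((⁅Y ⊓ centralizer (B₀ : Set G), A⁆ : Subgroup G) : Set G) :=
      H22.Basic.right_le_normalizer_commutator _ _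
    have hRX : ⁅Y ⊓ centralizer (B₀ : Set G), A⁆ ≤ Y ⊓ centralizer (B₀ : Set G) :=
      H22.Basic.commutator_le_left (h.nX (hB₀B.trans h.le) h.norm)
    have hRY := hRX.trans (inf_le_left (a := Y) (b := centralizer (B₀ : Set G)))
    obtain ⟨c, hc1, hc2⟩ := lift_fixed hN (h.le.trans hRn) hRY
        (h.cop.coprime_dvd_left (card_dvd_of_le h.le)) (h.solA h.le) hx (by
          intro b₀ hb₀
          rw [← hker]
          have h4 := mem_centralizer_iff.1 hx2 (π b₀) (mem_map_of_mem _ hb₀)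
          rw [map_mul, map_mul, map_inv, h4, mul_inv_cancel_right])
    exact mem_map.2 ⟨c, hL B₀ hcyc ⟨⟨hRY hc1.1, hc1.2⟩, hc1.1⟩, (hker.2 hc2).symm⟩
  · have := h.sol
    refine ⟨?_, map_mono h.le, ?_, ?_, ?_, ?_⟩
    · rintro _ ⟨a, ha, rfl⟩ _ ⟨b, hb, rfl⟩
      rw [← map_mul, ← map_mul, h.comm a ha b hb]
    · exact (map_mono h.norm).trans (le_normalizer_map π)
    · exact (h.cop.coprime_dvd_left (card_map_dvd _ _)).coprime_dvd_right (card_map_dvd _ _)
    · exact Group.isSolvable_of_surjective (f := π.subgroupMap Y) (π.subgroupMap_surjective Y)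
    · rw [← map_commutator, h.eq]

end

section
variable {G : Type u} [Group G] [Finite G]

theorem le_normalizer_iSup {ι : Sort*} {S : ι → Subgroup G} {K : Subgroup G}
    (h : ∀ i, K ≤ normalizer (S i : Set G)) : K ≤ normalizer ((⨆ i, S i : Subgroup G) : Set G) := by
  intro a ha
  rw [H22.Basic.mem_normalizer_iff_cj]
  show map _ _ = _
  rw [Subgroup.map_iSup]
  congr 1
  funext i
  exact H22.Basic.cj_eq_of_mem_normalizer (h i ha)

theorem sub_aux {U B₀ R : Subgroup G} (hU : IsMulCommutative U) (hBU : B₀ ≤ normalizer (U : Set G))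
    (hcop : (Nat.card B₀).Coprime (Nat.card U)) (hs : Group.IsSolvable B₀)
    (hRU : R ≤ normalizer (U : Set G)) (hRB : R ≤ centralizer (B₀ : Set G)) :
    ⁅U, R⁆ ⊓ centralizer (B₀ : Set G) ≤ ⁅U ⊓ centralizer (B₀ : Set G), R⁆ := by
  set E := ⁅U, B₀⁆ with hE
  set C := U ⊓ centralizer (B₀ : Set G) with hC
  have hEU : E ≤ U := H22.Basic.commutator_le_left hBU
  have hCU : C ≤ U := inf_le_left
  have hUc : ∀ x ∈ U, ∀ y ∈ U, x * y = y * x := fun x hx y hy =>
    congrArg Subtype.val (hU.is_comm.comm ⟨x, hx⟩ ⟨y, hy⟩)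
  have hsup : E ⊔ C = U := H1.Coprime.commutator_sup_centralizer B₀ U hBU hcop (Or.inl hs)
  have hRB' : R ≤ normalizer (B₀ : Set G) := hRB.trans (centralizer_le_normalizer _)
  have hRE : R ≤ normalizer (E : Set G) := H22.Basic.le_normalizer_commutator hRU hRB'
  have hRC : R ≤ normalizer (C : Set G) :=
    H22.Basic.le_normalizer_inf hRU (H22.Basic.le_normalizer_centralizer hRB')
  have hCR : ⁅C, R⁆ ≤ C := H22.Basic.commutator_le_left hRC
  have hCE : C ≤ normalizer (E : Set G) := hCU.trans (H22.Basic.left_le_normalizer_commutator _ _)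
  have h1 : ⁅U, R⁆ ≤ E ⊔ ⁅C, R⁆ := by
    rw [commutator_le]
    intro u hu r hr
    rw [← hsup] at hu
    obtain ⟨e, he, c, hc, rfl⟩ := (H22.Basic.mem_sup_of_le_normalizer hCE).1 hu
    have h2 : ⁅c, r⁆ ∈ ⁅C, R⁆ := commutator_mem_commutator hc hr
    have h3 : ⁅e, r⁆ ∈ E := (H22.Basic.commutator_le_left hRE) (commutator_mem_commutator he hr)
    have e1 : ⁅e * c, r⁆ = (e * ⁅c, r⁆ * e⁻¹) * ⁅e, r⁆ := by simp only [commutatorElement_def]; group
    have e2 : e * ⁅c, r⁆ * e⁻¹ = ⁅c, r⁆ := by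
      rw [hUc e (hEU he) _ (hCU (hCR h2)), mul_inv_cancel_right]
    rw [e1, e2]
    exact mul_mem (mem_sup_right h2) (mem_sup_left h3)
  rintro x ⟨hx1, hx2⟩
  obtain ⟨e, he, c, hc, rfl⟩ := (H22.Basic.mem_sup_of_le_normalizer ((hCR.trans hCE))).1 (h1 hx1)
  have he2 : e ∈ centralizer (B₀ : Set G) := by
    have := (centralizer (B₀ : Set G)).mul_mem hx2 ((centralizer (B₀ : Set G)).inv_mem (hCR hc).2)
    rwa [mul_inv_cancel_right] at this
  have h4 : e ∈ (U ⊓ centralizer (B₀ : Set G)) ⊓ ⁅U, B₀⁆ := ⟨⟨hEU he, he2⟩, he⟩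
  rw [H1.Coprime.inf_commutator_eq_bot_of_abelian B₀ U hBU hcop, mem_bot] at h4
  rw [h4, one_mul]; exact hc

theorem gen_R {A B Y M : Subgroup G} (h : Hyp A B Y)
    (hM : ∀ B₀, Cyc B₀ B → ⁅Y ⊓ centralizer (B₀ : Set G), A⁆ ≤ M) : Y ≤ M := by
  set M₀ : Subgroup G := ⨆ i : {B₀ : Subgroup G // Cyc B₀ B}, ⁅Y ⊓ centralizer (i.1 : Set G), A⁆ with hM₀
  have hi : ∀ B₀, Cyc B₀ B → ⁅Y ⊓ centralizer (B₀ : Set G), A⁆ ≤ M₀ := fun B₀ hB₀ =>
    le_iSup (fun i : {B₀ : Subgroup G // Cyc B₀ B} => ⁅Y ⊓ centralizer (i.1 : Set G), A⁆) ⟨B₀, hB₀⟩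
  have hAM : A ≤ normalizer (M₀ : Set G) :=
    le_normalizer_iSup (fun i => H22.Basic.right_le_normalizer_commutator _ _)
  have hCM : Y ⊓ centralizer (A : Set G) ≤ normalizer (M₀ : Set G) := by
    apply le_normalizer_iSup
    intro i
    refine le_trans ?_ (H22.Basic.left_le_normalizer_commutator _ _)
    exact inf_le_inf_left _ (centralizer_le (i.2.1.trans h.le))
  have hY : Y ≤ M₀ ⊔ (Y ⊓ centralizer (A : Set G)) := by
    apply H22.Gen.gen_cyclic (A := B) (fun a ha b hb => h.comm a (h.le ha) b (h.le hb)) (h.le.trans h.norm)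
      (h.cop.coprime_dvd_left (card_dvd_of_le h.le))
    intro B₀ h1 h2
    have h3 := H1.Coprime.commutator_sup_centralizer A (Y ⊓ centralizer (B₀ : Set G))
      (h.nX (h1.trans h.le) h.norm) (h.cop.coprime_dvd_right (card_dvd_of_le inf_le_left))
      (Or.inl (h.solA le_rfl))
    rw [← h3]
    exact sup_le_sup (hi B₀ ⟨h1, h2⟩) (inf_le_inf_right _ inf_le_left)
  have hc : ⁅Y, A⁆ ≤ M₀ := by
    rw [commutator_le]
    intro y hy a ha
    obtain ⟨m, hm, c, hc, rfl⟩ := (H22.Basic.mem_sup_of_le_normalizer hCM).1 (hY hy)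
    have e1 : ⁅m * c, a⁆ = ⁅m, a⁆ := by
      have := mem_centralizer_iff.1 hc.2 a ha
      rw [commutatorElement_def, commutatorElement_def, mul_inv_rev]
      calc m * c * a * (c⁻¹ * m⁻¹) * a⁻¹ = m * (c * a) * c⁻¹ * m⁻¹ * a⁻¹ := by group
        _ = m * (a * c) * c⁻¹ * m⁻¹ * a⁻¹ := by rw [this]
        _ = m * a * m⁻¹ * a⁻¹ := by group
    rw [e1]
    exact (H22.Basic.commutator_le_left hAM) (commutator_mem_commutator hm ha)
  rw [h.eq] at hc
  exact hc.trans (iSup_le (fun i => hM i.1 i.2))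

/-- elements acting trivially modulo `T ≤ U` -/
def actT {U T : Subgroup G} (hU : U.Normal) (hTU : T ≤ U) : Subgroup G where
  carrier := {g | ∀ u ∈ U, ⁅u, g⁆ ∈ T}
  one_mem' := fun u hu => by rw [commutatorElement_one_right]; exact one_mem _
  mul_mem' := by
    intro g k hg hk u hu
    have h1 := hk u hu
    have h2 := hg _ (hTU h1)
    have e : ⁅u, g * k⁆ = ⁅u, g⁆ * (⁅⁅u, k⁆, g⁆⁻¹ * ⁅u, k⁆) := by simp only [commutatorElement_def]; group
    rw [e]
    exact mul_mem (hg u hu) (mul_mem (inv_mem h2) h1)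
  inv_mem' := by
    intro g hg u hu
    have hw : g⁻¹ * u * g ∈ U := by
      have := hU.conj_mem u hu g⁻¹
      rwa [inv_inv] at this
    have e : ⁅u, g⁻¹⁆ = ⁅g⁻¹ * u * g, g⁆⁻¹ := by simp only [commutatorElement_def]; group
    rw [e]
    exact inv_mem (hg _ hw)

theorem F2 {A B Y L : Subgroup G} (h : Hyp A B Y) (hL : Pr A B Y L) {U : Subgroup G} (hU : U.Normal)
    (hUc : IsMulCommutative U) (hUY : U ≤ Y) : ⁅U, Y⁆ ⊓ centralizer (B : Set G) ≤ L := by
  set R : {B₀ : Subgroup G // Cyc B₀ B} → Subgroup G := fun i => ⁅Y ⊓ centralizer (i.1 : Set G), A⁆ with hR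
  set T : Subgroup G := ⨆ i, ⁅U, R i⁆ with hT
  have hn : ∀ K : Subgroup G, K ≤ normalizer (U : Set G) := fun K => by
    rw [normalizer_eq_top]; exact le_top
  have hDU : ∀ i, ⁅U, R i⁆ ≤ U := fun i => H22.Basic.commutator_le_left (hn _)
  have hTU : T ≤ U := iSup_le hDU
  have hRA : ∀ i, A ≤ normalizer (R i : Set G) := fun i => H22.Basic.right_le_normalizer_commutator _ _
  have hRX : ∀ i, R i ≤ Y ⊓ centralizer (i.1 : Set G) := fun i =>
    H22.Basic.commutator_le_left (h.nX (i.2.1.trans h.le) h.norm)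
  have hcopU : (Nat.card A).Coprime (Nat.card U) := h.cop.coprime_dvd_right (card_dvd_of_le hUY)
  have h1 : ⁅U, Y⁆ ≤ T := by
    have h2 : Y ≤ actT hU hTU := by
      apply gen_R h
      intro B₀ hB₀ g hg u hu
      exact (le_iSup (fun i => ⁅U, R i⁆) ⟨B₀, hB₀⟩) (commutator_mem_commutator hu hg)
    rw [commutator_le]
    exact fun u hu y hy => h2 hy u hu
  -- fixed points of B on T
  have hDA : ∀ i, A ≤ normalizer ((⁅U, R i⁆ : Subgroup G) : Set G) := fun i =>
    H22.Basic.le_normalizer_commutator (hn _) (hRA i)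
  set W : Subgroup G := ⨆ i, (⁅U, R i⁆ ⊓ centralizer (B : Set G)) with hW
  have hWU : W ≤ U ⊓ centralizer (B : Set G) := iSup_le (fun i => inf_le_inf_right _ (hDU i))
  have h3 : T ≤ ⁅U, B⁆ ⊔ W := by
    apply iSup_le
    intro i
    rw [← H1.Coprime.commutator_sup_centralizer B ⁅U, R i⁆ (h.le.trans (hDA i))
      ((hcopU.coprime_dvd_left (card_dvd_of_le h.le)).coprime_dvd_right (card_dvd_of_le (hDU i)))
      (Or.inl (h.solA h.le))]
    exact sup_le_sup (commutator_mono (hDU i) le_rfl) (le_iSup (fun i => ⁅U, R i⁆ ⊓ centralizer (B : Set G)) i)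
  have h4 : ⁅U, Y⁆ ⊓ centralizer (B : Set G) ≤ W := by
    rintro x ⟨hx1, hx2⟩
    obtain ⟨e, he, c, hc, rfl⟩ := (H22.Basic.mem_sup_of_le_normalizer
      ((hWU.trans inf_le_left).trans (H22.Basic.left_le_normalizer_commutator U B))).1 (h3 (h1 hx1))
    have he2 : e ∈ centralizer (B : Set G) := by
      have := (centralizer (B : Set G)).mul_mem hx2 ((centralizer (B : Set G)).inv_mem (hWU hc).2)
      rwa [mul_inv_cancel_right] at this
    have h4 : e ∈ (U ⊓ centralizer (B : Set G)) ⊓ ⁅U, B⁆ :=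
      ⟨⟨(H22.Basic.commutator_le_left (hn _)) he, he2⟩, he⟩
    rw [H1.Coprime.inf_commutator_eq_bot_of_abelian B U (hn _)
      (hcopU.coprime_dvd_left (card_dvd_of_le h.le)), mem_bot] at h4
    rw [h4, one_mul]; exact hc
  refine h4.trans (iSup_le ?_)
  intro i
  have hi : i.1 ≤ A := i.2.1.trans h.le
  have h5 : ⁅U, R i⁆ ⊓ centralizer (i.1 : Set G) ≤ R i := by
    refine (sub_aux hUc (hn _) (hcopU.coprime_dvd_left (card_dvd_of_le hi)) (h.solA hi) (hn _)
      ((hRX i).trans inf_le_right)).trans ?_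
    rw [commutator_comm]
    apply H22.Basic.commutator_le_left
    exact (inf_le_inf_right _ hUY).trans (H22.Basic.left_le_normalizer_commutator _ _)
  intro x hx
  have h6 : x ∈ R i := h5 ⟨hx.1, centralizer_le i.2.1 hx.2⟩
  exact hL i.1 i.2 ⟨⟨(hRX i h6).1, hx.2⟩, h6⟩

end

theorem eq_bot_of_perfect {G : Type u} [Group G] {U : Subgroup G} (hs : Group.IsSolvable U) (h : ⁅U, U⁆ = U) :
    U = ⊥ := by
  by_contra hb
  have := (Subgroup.nontrivial_iff_ne_bot U).2 hb
  have h1 := Group.IsSolvable.commutator_lt_top_of_nontrivial U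
  have h2 : (commutator U).map U.subtype = U := by rw [Subgroup.map_subtype_commutator, h]
  have h3 : commutator U = ⊤ := by
    apply Subgroup.map_injective U.subtype_injective
    rw [h2, ← MonoidHom.range_eq_map, U.range_subtype]
  exact h1.ne h3

theorem main_aux (n : ℕ) : ∀ (G : Type u) [Group G] [Finite G] (A B Y L : Subgroup G), Nat.card Y = n →
    Hyp A B Y → Y ⊔ A = ⊤ → Pr A B Y L → Y ⊓ centralizer (B : Set G) ≤ L := by
  induction n using Nat.strong_induction_on with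
  | _ n ih =>
  intro G _ _ A B Y L hn h htop hL
  by_contra hcon
  have hYn : Y.Normal := by
    rw [← normalizer_eq_top_iff, eq_top_iff, ← htop]
    exact sup_le le_normalizer h.norm
  have F1 : ∀ N : Subgroup G, N.Normal → N ≤ Y → N ⊓ centralizer (B : Set G) ≤ L → N = ⊥ := by
    intro N hN hNY hNL
    by_contra hNb
    apply hcon
    obtain ⟨q1, q2⟩ := quot h (L := L ⊓ (Y ⊓ centralizer (B : Set G)))
      (fun B₀ hB₀ => le_inf (hL B₀ hB₀) inf_le_left) hN hNY
    have hcard : Nat.card (Y.map (QuotientGroup.mk' N)) < n := by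
      have h1 := H22.Basic.card_mul_relIndex hNY
      have h2 : N.relIndex Y = Nat.card (Y.map (QuotientGroup.mk' N)) := by
        rw [← relIndex_ker, QuotientGroup.ker_mk']
      rw [h2, hn] at h1
      have h3 : 1 < Nat.card N := by
        have := (Subgroup.nontrivial_iff_ne_bot N).2 hNb
        exact Finite.one_lt_card
      have h4 : 0 < Nat.card (Y.map (QuotientGroup.mk' N)) := Nat.card_pos
      rw [← h1]
      nlinarith
    have h1 := ih _ hcard (G ⧸ N) _ _ _ _ rfl q2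
      (by rw [← Subgroup.map_sup, htop, Subgroup.map_top_of_surjective _ (QuotientGroup.mk'_surjective N)]) q1
    rintro x ⟨hx1, hx2⟩
    have h2 : QuotientGroup.mk' N x ∈ Y.map (QuotientGroup.mk' N) ⊓
        centralizer ((B.map (QuotientGroup.mk' N) : Subgroup (G ⧸ N)) : Set (G ⧸ N)) :=
      ⟨mem_map_of_mem _ hx1, mem_centralizer_iff.2 (by
        rintro _ ⟨b, hb, rfl⟩
        rw [← map_mul, ← map_mul, mem_centralizer_iff.1 hx2 b hb])⟩
    obtain ⟨l, ⟨hl, hlY, hlC⟩, e⟩ := mem_map.1 (h1 h2)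
    have h3 : l⁻¹ * x ∈ N := QuotientGroup.eq.1 e
    have h4 : l⁻¹ * x ∈ centralizer (B : Set G) :=
      (centralizer (B : Set G)).mul_mem ((centralizer (B : Set G)).inv_mem hlC) hx2
    have h5 : l⁻¹ * x ∈ L := hNL ⟨h3, h4⟩
    have e2 : x = l * (l⁻¹ * x) := by group
    rw [e2]
    exact L.mul_mem hl h5
  have hnn : ∀ U K : Subgroup G, U.Normal → K ≤ normalizer (U : Set G) := fun U K hU => by
    rw [normalizer_eq_top]; exact le_top
  have F2' : ∀ U : Subgroup G, U.Normal → IsMulCommutative U → U ≤ Y → ⁅U, Y⁆ = ⊥ := fun U hU hUc hUY =>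
    F1 _ (commutator_normal U Y) (H22.Basic.commutator_le_left (hnn U Y hU) |>.trans hUY) (F2 h hL hU hUc hUY)
  have F3' : ∀ U : Subgroup G, U.Normal → IsMulCommutative U → U ≤ Y → ⁅U, A⁆ = ⊥ := by
    intro U hU hUc hUY
    have h1 := F2' U hU hUc hUY
    have h2 : ⁅U, A⁆ ≤ U := H22.Basic.commutator_le_left (hnn U A hU)
    have h3 : Y ≤ centralizer (U : Set G) := by
      rw [commutator_comm, commutator_eq_bot_iff_le_centralizer] at h1; exact h1
    have hN : (⁅U, A⁆).Normal := by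
      rw [← normalizer_eq_top_iff, eq_top_iff, ← htop]
      exact sup_le ((h3.trans (centralizer_le h2)).trans (centralizer_le_normalizer _))
        (H22.Basic.right_le_normalizer_commutator _ _)
    apply F1 _ hN (h2.trans hUY)
    intro x hx
    have hAB : A ≤ centralizer (B : Set G) := h.cent.trans (centralizer_le h.le)
    have h4 := sub_aux hUc (hnn U B hU) ((h.cop.coprime_dvd_left (card_dvd_of_le h.le)).coprime_dvd_right
      (card_dvd_of_le hUY)) (h.solA h.le) (hnn U A hU) hAB hx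
    exact hL B ⟨le_rfl, 1, one_mem _, by simp⟩ ⟨⟨hUY (h2 hx.1), hx.2⟩,
      commutator_mono (inf_le_inf_right _ hUY) le_rfl h4⟩
  have Z : ∀ T : Subgroup G, T.Normal → IsMulCommutative T → T ≤ Y → T ≤ center G := by
    intro T hT hTc hTY
    have h1 := F2' T hT hTc hTY
    have h2 := F3' T hT hTc hTY
    rw [commutator_comm, commutator_eq_bot_iff_le_centralizer] at h1 h2
    have h3 : (⊤ : Subgroup G) ≤ centralizer (T : Set G) := by rw [← htop]; exact sup_le h1 h2
    rw [le_centralizer_iff] at h3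
    intro t ht
    have := h3 ht
    rwa [coe_top, centralizer_univ] at this
  have hcen : ∀ {T K : Subgroup G}, T ≤ center G → ⁅T, K⁆ = ⊥ := by
    intro T K hT
    rw [commutator_eq_bot_iff_le_centralizer]
    exact hT.trans (center_le_centralizer _)
  -- minimal noncentral normal subgroup
  obtain ⟨U, ⟨hU, hUY, hUz⟩, hmin⟩ := wellFounded_lt.has_min
    {U : Subgroup G | U.Normal ∧ U ≤ Y ∧ ¬ U ≤ center G} ⟨Y, hYn, le_rfl, fun hY => by
      apply hcon
      have := h.eq
      rw [hcen hY] at this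
      rw [← this]
      exact inf_le_left.trans bot_le⟩
  have hsU : Group.IsSolvable U := by
    have := h.sol
    exact Group.isSolvable_of_isSolvable_injective (f := Subgroup.inclusion hUY) (Subgroup.inclusion_injective hUY)
  have hU'U : ⁅U, U⁆ ≤ U := H22.Basic.commutator_le_left le_normalizer
  have hU' : ⁅U, U⁆ ≤ center G := by
    by_contra hc
    have h1 := hmin ⁅U, U⁆ ⟨commutator_normal U U, hU'U.trans hUY, hc⟩
    have h2 : ⁅U, U⁆ = U := by
      rcases hU'U.lt_or_eq with h3 | h3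
      · exact absurd h3 h1
      · exact h3
    have h3 := eq_bot_of_perfect hsU h2
    apply hUz
    rw [h3]; exact bot_le
  have hAU := hnn U A hU
  have hcopU : (Nat.card A).Coprime (Nat.card U) := h.cop.coprime_dvd_right (card_dvd_of_le hUY)
  have key : ∀ B₀, Cyc B₀ B → U ⊓ centralizer (B₀ : Set G) ≤ centralizer (A : Set G) := by
    intro B₀ hB₀
    have hB₀A : B₀ ≤ A := hB₀.1.trans h.le
    set X := U ⊓ centralizer (B₀ : Set G) with hX
    set D := ⁅X, A⁆ with hD
    have hXU : X ≤ U := inf_le_left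
    have hXA : A ≤ normalizer (X : Set G) := h.nX hB₀A hAU
    have hDX : D ≤ X := H22.Basic.commutator_le_left hXA
    have hDU : D ≤ U := hDX.trans hXU
    have hN : ⁅D, D⁆ ≤ center G := (commutator_mono hDU hDU).trans hU'
    have hNn : (⁅D, D⁆).Normal := ⟨fun n hn g => by
      have := mem_center_iff.1 (hN hn) g
      rw [this, mul_inv_cancel_right]; exact hn⟩
    have hDD : ⁅D, D⁆ = ⊥ := by
      apply F1 _ hNn ((H22.Basic.commutator_le_left le_normalizer).trans (hDU.trans hUY))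
      intro x hx
      have hxD : x ∈ D := (H22.Basic.commutator_le_left le_normalizer) hx.1
      exact hL B₀ hB₀ ⟨⟨hUY (hDU hxD), hx.2⟩, commutator_mono (inf_le_inf_right _ hUY) le_rfl hxD⟩
    have hDc : D ≤ centralizer (D : Set G) := commutator_eq_bot_iff_le_centralizer.1 hDD
    have hD1 : ⁅⁅U, B₀⁆, D⁆ = ⊥ := by
      apply commutator_commutator_eq_bot_of_rotate
      · have : ⁅B₀, D⁆ = ⊥ := by
          rw [commutator_comm, commutator_eq_bot_iff_le_centralizer]
          exact hDX.trans inf_le_right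
        rw [this, commutator_bot_left]
      · exact hcen ((commutator_mono hDU le_rfl).trans hU')
    have hD2 : ⁅D, U ⊓ centralizer (A : Set G)⁆ = ⊥ := by
      rw [hD]
      apply commutator_commutator_eq_bot_of_rotate
      · have : ⁅A, U ⊓ centralizer (A : Set G)⁆ = ⊥ := by
          rw [commutator_comm, commutator_eq_bot_iff_le_centralizer]
          exact inf_le_right
        rw [this, commutator_bot_left]
      · exact hcen ((commutator_mono inf_le_left hXU).trans hU')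
    have hUD : U ≤ centralizer (D : Set G) := by
      rw [← H1.Coprime.commutator_sup_centralizer B₀ U (hB₀A.trans hAU)
        (hcopU.coprime_dvd_left (card_dvd_of_le hB₀A)) (Or.inl (h.solA hB₀A))]
      refine sup_le (commutator_eq_bot_iff_le_centralizer.1 hD1) ?_
      rw [← H1.Coprime.commutator_sup_centralizer A (U ⊓ centralizer (B₀ : Set G)) hXA
        (hcopU.coprime_dvd_right (card_dvd_of_le hXU)) (Or.inl (h.solA le_rfl))]
      refine sup_le hDc ?_
      rw [commutator_comm, commutator_eq_bot_iff_le_centralizer] at hD2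
      exact (inf_le_inf_right _ hXU).trans hD2
    have hDz : D ≤ center G := by
      have hUcn : (centralizer (U : Set G)).Normal := by
        rw [← normalizer_eq_top_iff, eq_top_iff]
        exact H22.Basic.le_normalizer_centralizer (hnn U ⊤ hU)
      have h1 : (U ⊓ centralizer (U : Set G)).Normal := inferInstance
      refine le_trans (le_inf hDU (le_centralizer_iff.1 hUD)) (Z _ h1 ?_ (inf_le_left.trans hUY))
      refine ⟨⟨fun a b => Subtype.ext ?_⟩⟩
      exact (mem_centralizer_iff.1 a.2.2 b b.2.1).symm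
    have hDb : D = ⊥ := by
      rw [hD, ← H1.Coprime.commutator_commutator_eq A X hXA (hcopU.coprime_dvd_right (card_dvd_of_le hXU))
        (Or.inl (h.solA le_rfl))]
      exact hcen hDz
    exact commutator_eq_bot_iff_le_centralizer.1 hDb
  have hUA : U ≤ centralizer (A : Set G) := by
    apply H22.Gen.gen_cyclic (A := B) (fun a ha b hb => h.comm a (h.le ha) b (h.le hb)) (h.le.trans hAU)
      (hcopU.coprime_dvd_left (card_dvd_of_le h.le))
    intro B₀ h1 h2
    exact key B₀ ⟨h1, h2⟩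
  have hUAb : ⁅U, A⁆ = ⊥ := commutator_eq_bot_iff_le_centralizer.2 hUA
  have hYU : ⁅Y, U⁆ = ⊥ := by
    have : ⁅⁅Y, A⁆, U⁆ = ⊥ := by
      apply commutator_commutator_eq_bot_of_rotate
      · rw [commutator_comm A U, hUAb, commutator_bot_left]
      · have h1 : ⁅U, Y⁆ ≤ U := H22.Basic.commutator_le_left (hnn U Y hU)
        exact le_bot_iff.1 ((commutator_mono h1 le_rfl).trans hUAb.le)
    rwa [h.eq] at this
  apply hUz
  have h3 : (⊤ : Subgroup G) ≤ centralizer (U : Set G) := by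
    rw [← htop]
    exact sup_le (commutator_eq_bot_iff_le_centralizer.1 hYU) (le_centralizer_iff.1 hUA)
  rw [le_centralizer_iff] at h3
  intro t ht
  have := h3 ht
  rwa [coe_top, centralizer_univ] at this

theorem main {G : Type u} [Group G] [Finite G] {A B Y L : Subgroup G} (h : Hyp A B Y) (hL : Pr A B Y L) :
    Y ⊓ centralizer (B : Set G) ≤ L := by
  set H : Subgroup G := Y ⊔ A with hH
  have hYH : Y ≤ H := le_sup_left
  have hAH : A ≤ H := le_sup_right
  have hBH : B ≤ H := h.le.trans hAH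
  have mY := H22.Basic.map_subtype_subgroupOf hYH
  have mA := H22.Basic.map_subtype_subgroupOf hAH
  have mB := H22.Basic.map_subtype_subgroupOf hBH
  have h' : Hyp (A.subgroupOf H) (B.subgroupOf H) (Y.subgroupOf H) := by
    have := h.sol
    refine ⟨?_, comap_mono h.le, (comap_mono h.norm).trans (le_normalizer_comap _), ?_, ?_, ?_⟩
    · rintro a ha b hb
      exact Subtype.ext (h.comm a.1 ha b.1 hb)
    · rw [H22.Basic.card_subgroupOf_eq hYH, H22.Basic.card_subgroupOf_eq hAH]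
      exact h.cop
    · exact Group.isSolvable_of_isSolvable_injective
        (f := (Subgroup.subgroupOfEquivOfLe hYH).toMonoidHom) (Subgroup.subgroupOfEquivOfLe hYH).injective
    · apply Subgroup.map_injective H.subtype_injective
      rw [map_commutator, mY, mA, h.eq]
  have htop : Y.subgroupOf H ⊔ A.subgroupOf H = ⊤ := by
    apply Subgroup.map_injective H.subtype_injective
    rw [Subgroup.map_sup, mY, mA, ← MonoidHom.range_eq_map, H.range_subtype]
  have hPr : Pr (A.subgroupOf H) (B.subgroupOf H) (Y.subgroupOf H) (L.subgroupOf H) := by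
    rintro B₁ ⟨hB₁, b, hb, e⟩
    have hc : Cyc (B₁.map H.subtype) B := by
      refine ⟨by rw [← mB]; exact map_mono hB₁, b.1, hb, ?_⟩
      have := congrArg (Subgroup.map H.subtype) e
      rwa [Subgroup.map_sup, MonoidHom.map_zpowers, mB] at this
    rintro x ⟨⟨hx1, hx2⟩, hx3⟩
    refine hL _ hc ⟨⟨hx1, ?_⟩, ?_⟩
    · refine mem_centralizer_iff.2 (fun b hb => ?_)
      exact congrArg Subtype.val (mem_centralizer_iff.1 hx2 ⟨b, hBH hb⟩ hb)
    · have h1 : x.1 ∈ (⁅Y.subgroupOf H ⊓ centralizer (B₁ : Set H), A.subgroupOf H⁆).map H.subtype :=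
        mem_map_of_mem _ hx3
      rw [map_commutator, mA] at h1
      refine commutator_mono ?_ le_rfl h1
      rintro _ ⟨z, ⟨hz1, hz2⟩, rfl⟩
      refine ⟨hz1, mem_centralizer_iff.2 ?_⟩
      rintro _ ⟨y, hy, rfl⟩
      exact congrArg Subtype.val (mem_centralizer_iff.1 hz2 y hy)
  have hm := main_aux _ H _ _ _ _ rfl h' htop hPr
  rintro x ⟨hx1, hx2⟩
  have : (⟨x, hYH hx1⟩ : H) ∈ Y.subgroupOf H ⊓ centralizer ((B.subgroupOf H : Subgroup H) : Set H) :=
    ⟨hx1, mem_centralizer_iff.2 (fun b hb => Subtype.ext (mem_centralizer_iff.1 hx2 b.1 hb))⟩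
  exact hm this

/-- the cyclic quotient condition from `Cyc` -/
theorem Cyc.isCyclic {G : Type u} [Group G] {B₀ B : Subgroup G} (h : Cyc B₀ B)
    (hc : ∀ a ∈ B, ∀ b ∈ B, a * b = b * a) [hn : (B₀.subgroupOf B).Normal] :
    IsCyclic (B ⧸ B₀.subgroupOf B) := by
  obtain ⟨hle, b, hb, e⟩ := h
  refine ⟨QuotientGroup.mk ⟨b, hb⟩, fun x => ?_⟩
  obtain ⟨⟨y, hy⟩, rfl⟩ := QuotientGroup.mk_surjective x
  have hn' : zpowers b ≤ normalizer (B₀ : Set G) := by
    rw [zpowers_le, mem_normalizer_iff]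
    intro z
    constructor
    · intro hz
      have : b * z * b⁻¹ = z := by rw [hc b hb z (hle hz), mul_inv_cancel_right]
      rwa [this]
    · intro hz
      have h1 := hle hz
      have h2 : z ∈ B := by
        have := B.mul_mem (B.mul_mem (B.inv_mem hb) h1) hb
        have e : b⁻¹ * (b * z * b⁻¹) * b = z := by group
        rwa [e] at this
      have : b * z * b⁻¹ = z := by rw [hc b hb z h2, mul_inv_cancel_right]
      rwa [this] at hz
  have hy' : y ∈ B₀ ⊔ zpowers b := by rw [e]; exact hy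
  obtain ⟨c, hc', k, hk, rfl⟩ := (H22.Basic.mem_sup_of_le_normalizer hn').1 hy'
  obtain ⟨n, rfl⟩ := mem_zpowers_iff.1 hk
  refine mem_zpowers_iff.2 ⟨n, ?_⟩
  have hcb : c ∈ B := hle hc'
  rw [← QuotientGroup.mk_zpow]
  refine QuotientGroup.eq.2 ?_
  rw [mem_subgroupOf]
  have e3 : (((⟨b, hb⟩ : B) ^ n)⁻¹ * ⟨c * b ^ n, hy⟩ : B).1 = (b ^ n)⁻¹ * (c * b ^ n) := rfl
  rw [e3, hc c hcb (b ^ n) (B.zpow_mem hb n), inv_mul_cancel_left]
  exact hc'

end Cfsg.Agent.H12.CFP
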