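import Mathlib

set_option autoImplicit false

namespace Cfsg.Agent.H17.CV

/-- left-normed commutator values -/
def V (G : Type*) [Group G] : ℕ → Set G
  | 0 => Set.univ
  | (k + 1) => {x | ∃ a ∈ V G k, ∃ b : G, x = a * b * a⁻¹ * b⁻¹}

/-- a value `x` commutes with `y` as soon as the order of `[x, y]` is coprime to the order of `x` -/
def HA (G : Type*) [Group G] (k : ℕ) : Prop :=
  ∀ x ∈ V G k, ∀ y : G, (orderOf x).Coprime (orderOf (x * y * x⁻¹ * y⁻¹)) → x * y = y * x

end Cfsg.Agent.H17.CV
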