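import Mathlib
import Cfsg.Agent.H17_CV

set_option autoImplicit false

namespace Cfsg.Agent.H12.CVB

open Cfsg.Agent.H17.CV
open scoped commutatorElement

theorem ofFn_init {α : Type*} (k : ℕ) (f : Fin (k + 1 + 1) → α) :
    (List.ofFn f).tail = (List.ofFn (fun i : Fin (k + 1) => f i.castSucc)).tail ++ [f (Fin.last (k + 1))] := by
  rw [List.ofFn_succ' f, List.concat_eq_append]
  rw [List.tail_append_of_ne_nil (by simp)]

theorem mem_V_iff {G : Type*} [Group G] (k : ℕ) (x : G) :
    x ∈ V G k ↔ ∃ f : Fin (k + 1) → G,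
      x = ((List.ofFn f).tail).foldl (fun a b => a * b * a⁻¹ * b⁻¹) (f 0) := by
  induction k generalizing x with
  | zero =>
    constructor
    · intro _
      exact ⟨fun _ => x, by simp⟩
    · intro _
      exact Set.mem_univ x
  | succ k ih =>
    constructor
    · rintro ⟨a, ha, b, rfl⟩
      obtain ⟨f, hf⟩ := (ih a).mp ha
      refine ⟨Fin.snoc (α := fun _ => G) f b, ?_⟩
      rw [ofFn_init, List.foldl_append]
      have h0 : (Fin.snoc (α := fun _ => G) f b : Fin (k + 1 + 1) → G) 0 = f 0 := by
        have : (0 : Fin (k + 1 + 1)) = Fin.castSucc 0 := rfl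
        rw [this, Fin.snoc_castSucc]
      simp only [Fin.snoc_castSucc, Fin.snoc_last, h0, List.foldl_cons, List.foldl_nil, ← hf]
    · rintro ⟨f, hf⟩
      rw [ofFn_init, List.foldl_append] at hf
      refine ⟨_, (ih _).mpr ⟨fun i => f i.castSucc, rfl⟩, f (Fin.last (k + 1)), ?_⟩
      simpa using hf

theorem conj_V {G : Type*} [Group G] (k : ℕ) {x : G} (hx : x ∈ V G k) (g : G) :
    g * x * g⁻¹ ∈ V G k := by
  induction k generalizing x with
  | zero => exact Set.mem_univ _
  | succ k ih =>
    obtain ⟨a, ha, b, rfl⟩ := hx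
    exact ⟨g * a * g⁻¹, ih ha, g * b * g⁻¹, by group⟩

theorem closure_V {G : Type*} [Group G] (k : ℕ) :
    Subgroup.closure (V G k) = (⊤ : Subgroup G).lowerCentralSeries k := by
  induction k with
  | zero =>
    show Subgroup.closure Set.univ = ⊤
    exact Subgroup.closure_univ
  | succ k ih =>
    rw [Subgroup.lowerCentralSeries_succ, ← ih]
    have hconj : ∀ {x : G} (_ : x ∈ Subgroup.closure (V G (k + 1))) (g : G),
        g * x * g⁻¹ ∈ Subgroup.closure (V G (k + 1)) := by
      intro x hx g
      induction hx using Subgroup.closure_induction with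
      | mem y hy => exact Subgroup.subset_closure (conj_V _ hy g)
      | one => simp
      | mul y z _ _ hy hz =>
        have : g * (y * z) * g⁻¹ = (g * y * g⁻¹) * (g * z * g⁻¹) := by group
        rw [this]; exact mul_mem hy hz
      | inv y _ hy =>
        have : g * y⁻¹ * g⁻¹ = (g * y * g⁻¹)⁻¹ := by group
        rw [this]; exact inv_mem hy
    apply le_antisymm
    · rw [Subgroup.closure_le]
      rintro x ⟨a, ha, b, rfl⟩
      exact Subgroup.commutator_mem_commutator (Subgroup.subset_closure ha) (Subgroup.mem_top b)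
    · rw [Subgroup.commutator_le]
      intro g hg h _
      induction hg using Subgroup.closure_induction with
      | mem y hy => exact Subgroup.subset_closure ⟨y, hy, h, rfl⟩
      | one => simp
      | mul y z _ _ hy hz =>
        have : ⁅y * z, h⁆ = (y * ⁅z, h⁆ * y⁻¹) * ⁅y, h⁆ := by
          simp only [commutatorElement_def]; group
        rw [this]; exact mul_mem (hconj hz y) hy
      | inv y _ hy =>
        have : ⁅y⁻¹, h⁆ = y⁻¹ * ⁅y, h⁆⁻¹ * (y⁻¹)⁻¹ := by
          simp only [commutatorElement_def]; group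
        rw [this]; exact hconj (inv_mem hy) _

/-- subgroups -/
theorem V_sub {G : Type*} [Group G] (H : Subgroup G) (k : ℕ) {x : H} (hx : x ∈ V H k) :
    (x : G) ∈ V G k := by
  induction k generalizing x with
  | zero => exact Set.mem_univ _
  | succ k ih =>
    obtain ⟨a, ha, b, rfl⟩ := hx
    exact ⟨a, ih ha, b, by simp⟩

/-- images -/
theorem V_map {G H : Type*} [Group G] [Group H] (f : G →* H) (k : ℕ) {x : G} (hx : x ∈ V G k) :
    f x ∈ V H k := by
  induction k generalizing x with
  | zero => exact Set.mem_univ _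
  | succ k ih =>
    obtain ⟨a, ha, b, rfl⟩ := hx
    exact ⟨f a, ih ha, f b, by simp⟩

theorem V_lift {G H : Type*} [Group G] [Group H] (f : G →* H) (hf : Function.Surjective f) (k : ℕ)
    {y : H} (hy : y ∈ V H k) : ∃ x ∈ V G k, f x = y := by
  induction k generalizing y with
  | zero =>
    obtain ⟨x, rfl⟩ := hf y
    exact ⟨x, Set.mem_univ _, rfl⟩
  | succ k ih =>
    obtain ⟨a, ha, b, rfl⟩ := hy
    obtain ⟨a', ha', rfl⟩ := ih ha
    obtain ⟨b', rfl⟩ := hf b
    exact ⟨_, ⟨a', ha', b', rfl⟩, by simp⟩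

end Cfsg.Agent.H12.CVB
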