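import Mathlib
import Cfsg.Agent.H17_CV
import Cfsg.Agent.H12_CVB

set_option autoImplicit false

namespace Cfsg.Agent.H12.CVF

open Cfsg.Agent.H17.CV
open Cfsg.Agent.H12.CVB

theorem V_succ_le {G : Type*} [Group G] (k : ℕ) {x : G} (hx : x ∈ V G (k + 1)) : x ∈ V G k := by
  induction k generalizing x with
  | zero => exact Set.mem_univ _
  | succ k ih =>
    obtain ⟨a, ha, b, rfl⟩ := hx
    exact ⟨a, ih ha, b, rfl⟩

theorem V_inv {G : Type*} [Group G] (k : ℕ) {x : G} (hx : x ∈ V G k) : x⁻¹ ∈ V G k := by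
  cases k with
  | zero => exact Set.mem_univ _
  | succ k =>
    obtain ⟨a, ha, b, rfl⟩ := hx
    exact ⟨b * a * b⁻¹, conj_V k ha b, b⁻¹, by group⟩

theorem toHA {G : Type*} [Group G] [Finite G] (k : ℕ)
    (h : ∀ x y : G, (∃ f : Fin (k + 1) → G, x = ((List.ofFn f).tail).foldl (fun a b => a * b * a⁻¹ * b⁻¹) (f 0)) → (∃ f : Fin (k + 1) → G, y = ((List.ofFn f).tail).foldl (fun a b => a * b * a⁻¹ * b⁻¹) (f 0)) → (orderOf x).Coprime (orderOf y) →
        (∀ r : ℕ, r.Prime → r ∣ orderOf x * orderOf y → r ∣ orderOf (x * y)) ∨ orderOf x * orderOf y ≤ orderOf (x * y)) :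
    HA G k := by
  intro x hx y hco
  set z := x * y * x⁻¹ * y⁻¹ with hz
  have hzV : z ∈ V G k := V_succ_le k ⟨x, hx, y, rfl⟩
  have hxi := V_inv k hx
  have hord : orderOf (x⁻¹ * z) = orderOf x := by
    have h1 : x⁻¹ * z = y * x⁻¹ * y⁻¹ := by rw [hz]; group
    have h2 : orderOf (y * x⁻¹ * y⁻¹) = orderOf x⁻¹ := by
      have := MulAut.conj y
      simpa using orderOf_injective (MulAut.conj y).toMonoidHom (MulAut.conj y).injective x⁻¹
    rw [h1, h2, orderOf_inv]
  have hz1 : orderOf z = 1 := by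
    rcases h x⁻¹ z ((mem_V_iff k _).mp hxi) ((mem_V_iff k _).mp hzV) (by rwa [orderOf_inv]) with h3 | h3
    · by_contra hne
      obtain ⟨r, hr, hrz⟩ := Nat.exists_prime_and_dvd hne
      have h4 := h3 r hr (dvd_mul_of_dvd_right hrz _)
      rw [hord] at h4
      exact hr.one_lt.ne' (Nat.dvd_one.mp (hco ▸ Nat.dvd_gcd h4 hrz))
    · rw [hord, orderOf_inv] at h3
      have hx0 : 0 < orderOf x := orderOf_pos x
      have hz0 : 0 < orderOf z := orderOf_pos z
      nlinarith
  have hz2 : x * y * x⁻¹ * y⁻¹ = 1 := orderOf_eq_one_iff.mp hz1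
  have : x * y = x * y * x⁻¹ * y⁻¹ * (y * x) := by group
  rw [this, hz2, one_mul]

theorem nil_comm {N : Type*} [Group N] (hN : Group.IsNilpotent N) :
    ∀ x y : N, (orderOf x).Coprime (orderOf y) → x * y = y * x := by
  haveI := hN
  refine Group.nilpotent_center_quotient_ind (P := fun N _ _ => ∀ x y : N, (orderOf x).Coprime (orderOf y) → x * y = y * x) N ?_ ?_
  · intro G _ _ x y _; exact Subsingleton.elim _ _
  · intro G _ _ ih x y hco
    have hq := ih (x : G ⧸ Subgroup.center G) (y : G ⧸ Subgroup.center G)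
      (Nat.Coprime.of_dvd (orderOf_map_dvd (QuotientGroup.mk' (Subgroup.center G)) x)
        (orderOf_map_dvd (QuotientGroup.mk' (Subgroup.center G)) y) hco)
    have hz : x * y * x⁻¹ * y⁻¹ ∈ Subgroup.center G := by
      rw [← QuotientGroup.eq_one_iff]
      have : ((x * y * x⁻¹ * y⁻¹ : G) : G ⧸ Subgroup.center G) = (x : G ⧸ Subgroup.center G) * y * (x : G ⧸ Subgroup.center G)⁻¹ * (y : G ⧸ Subgroup.center G)⁻¹ := rfl
      rw [this, hq]; group
    set z := x * y * x⁻¹ * y⁻¹ with hzdef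
    have hc : ∀ g : G, g * z = z * g := Subgroup.mem_center_iff.mp hz
    have hxy : x * y = z * (y * x) := by rw [hzdef]; group
    -- conj: y⁻¹... : x * y * x⁻¹ = z * y
    have h1 : x * y * x⁻¹ = z * y := by rw [hzdef]; group
    have h2 : z ^ orderOf y = 1 := by
      have h3 : (x * y * x⁻¹) ^ orderOf y = 1 := by
        rw [conj_pow, pow_orderOf_eq_one]; group
      rw [h1, (show Commute z y from (hc y).symm).mul_pow, pow_orderOf_eq_one, mul_one] at h3
      exact h3
    have h4 : y * x⁻¹ * y⁻¹ = x⁻¹ * z := by rw [hzdef]; group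
    have h5 : z ^ orderOf x = 1 := by
      have h6 : (y * x⁻¹ * y⁻¹) ^ orderOf x = 1 := by
        rw [conj_pow, inv_pow, pow_orderOf_eq_one]; group
      rw [h4, (show Commute x⁻¹ z from hc x⁻¹).mul_pow, inv_pow, pow_orderOf_eq_one, inv_one, one_mul] at h6
      exact h6
    have h7 : orderOf z = 1 := Nat.eq_one_of_dvd_coprimes hco (orderOf_dvd_of_pow_eq_one h5) (orderOf_dvd_of_pow_eq_one h2)
    rw [hxy, orderOf_eq_one_iff.mp h7, one_mul]

theorem fwd {G : Type*} [Group G] [Finite G] (k : ℕ)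
    (hN : Group.IsNilpotent ↥((⊤ : Subgroup G).lowerCentralSeries k)) :
    ∀ x y : G, (∃ f : Fin (k + 1) → G, x = ((List.ofFn f).tail).foldl (fun a b => a * b * a⁻¹ * b⁻¹) (f 0)) → (∃ f : Fin (k + 1) → G, y = ((List.ofFn f).tail).foldl (fun a b => a * b * a⁻¹ * b⁻¹) (f 0)) → (orderOf x).Coprime (orderOf y) →
        (∀ r : ℕ, r.Prime → r ∣ orderOf x * orderOf y → r ∣ orderOf (x * y)) ∨ orderOf x * orderOf y ≤ orderOf (x * y) := by
  intro x y hx hy hco
  right
  have hxN : x ∈ (⊤ : Subgroup G).lowerCentralSeries k := by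
    rw [← closure_V]; exact Subgroup.subset_closure ((mem_V_iff k _).mpr hx)
  have hyN : y ∈ (⊤ : Subgroup G).lowerCentralSeries k := by
    rw [← closure_V]; exact Subgroup.subset_closure ((mem_V_iff k _).mpr hy)
  have hcomm : Commute x y := by
    have h1 := nil_comm hN ⟨x, hxN⟩ ⟨y, hyN⟩ (by
      rw [← Subgroup.orderOf_coe, ← Subgroup.orderOf_coe]; exact hco)
    exact congrArg Subtype.val h1
  rw [hcomm.orderOf_mul_eq_mul_orderOf_of_coprime hco]

end Cfsg.Agent.H12.CVF
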