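import Mathlib

namespace Cfsg.Agent.H12.CVL6

theorem L6 {G : Type*} [Group G]
    (hns : ¬ IsSolvable G)
    (hcen : ∀ N : Subgroup G, N.Normal → N ≠ ⊤ → N ≤ Subgroup.center G) :
    IsSimpleGroup (G ⧸ Subgroup.center G) := by
  have hZ : Subgroup.center G ≠ ⊤ := by
    intro h
    apply hns
    have hc : ∀ a b : G, a * b = b * a := by
      intro a b
      have : a ∈ Subgroup.center G := by rw [h]; exact Subgroup.mem_top a
      exact (Subgroup.mem_center_iff.mp this b).symm
    exact isSolvable_of_comm hc
  haveI : Nontrivial (G ⧸ Subgroup.center G) := QuotientGroup.nontrivial_iff.mpr hZ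
  refine ⟨fun N hN => ?_⟩
  have hsurj := QuotientGroup.mk'_surjective (Subgroup.center G)
  have hcm : (N.comap (QuotientGroup.mk' (Subgroup.center G))).Normal := hN.comap _
  by_cases ht : N.comap (QuotientGroup.mk' (Subgroup.center G)) = ⊤
  · right
    rw [← Subgroup.map_comap_eq_self_of_surjective hsurj N, ht]
    exact Subgroup.map_top_of_surjective _ hsurj
  · left
    have h1 := hcen _ hcm ht
    rw [← Subgroup.map_comap_eq_self_of_surjective hsurj N, Subgroup.map_eq_bot_iff,
      QuotientGroup.ker_mk']
    exact h1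

end Cfsg.Agent.H12.CVL6
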