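import Mathlib

namespace Cfsg.Agent.H12.CVL7

theorem L7 {G : Type*} [Group G] [Finite G]
    (hsol : ∀ H : Subgroup G, H ≠ ⊤ → Group.IsSolvable H)
    (hns : ¬ Group.IsSolvable G) :
    ∃ F : Subgroup G, F.Normal ∧ F ≠ ⊤ ∧ Group.IsNilpotent F ∧
      ∀ N : Subgroup G, N.Normal → N ≠ ⊤ → N ≤ F := by
  have hnt : Nontrivial G := by
    by_contra hn
    rw [not_nontrivial_iff_subsingleton] at hn
    exact hns (Group.isSolvable_of_comm (fun a b => Subsingleton.elim _ _))
  have hkey : ∀ N : Subgroup G, N.Normal → N ≠ ⊤ → N ≤ frattini G := by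
    intro N hN hNt
    rw [frattini, Order.radical]
    refine le_iInf₂ fun M hM => ?_
    by_contra hNM
    have hMN : M ⊔ N = ⊤ := by
      have hlt : M < M ⊔ N := lt_of_le_of_ne le_sup_left (fun h => hNM (h ▸ le_sup_right))
      exact hM.2 _ hlt
    have hMs : Group.IsSolvable M := hsol M hM.1
    have hNs : Group.IsSolvable N := hsol N hNt
    apply hns
    let f : M →* G ⧸ N := (QuotientGroup.mk' N).comp M.subtype
    have hf : Function.Surjective f := by
      intro q
      obtain ⟨g, rfl⟩ := QuotientGroup.mk'_surjective N q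
      have hg : g ∈ M ⊔ N := by rw [hMN]; exact Subgroup.mem_top g
      rw [← SetLike.mem_coe, Subgroup.mul_normal] at hg
      obtain ⟨m, hm, n, hn, rfl⟩ := hg
      refine ⟨⟨m, hm⟩, ?_⟩
      show QuotientGroup.mk' N m = QuotientGroup.mk' N (m * n)
      rw [map_mul, (QuotientGroup.eq_one_iff (N := N) n).mpr hn |> (fun h => (show QuotientGroup.mk' N n = 1 from h)), mul_one]
    have hq : Group.IsSolvable (G ⧸ N) := Group.isSolvable_of_surjective hf
    exact Group.isSolvable_of_ker_le_range N.subtype (QuotientGroup.mk' N) (by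
      rw [QuotientGroup.ker_mk', Subgroup.range_subtype])
  refine ⟨frattini G, inferInstance, ?_, frattini_nilpotent, hkey⟩
  intro h
  -- a maximal subgroup exists
  obtain ⟨M, hM⟩ := (IsCoatomic.eq_top_or_exists_le_coatom (⊥ : Subgroup G)).resolve_left bot_ne_top
  have := frattini_le_coatom hM.1
  rw [h] at this
  exact hM.1.1 (top_le_iff.mp this)

end Cfsg.Agent.H12.CVL7
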