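import Mathlib

/-! a rank 3 simplicity criterion -/

set_option autoImplicit false
set_option linter.all false

namespace Cfsg.Agent.H1.Rank3

open MulAction

theorem rank3 {G W : Type*} [Group G] [Finite G] [MulAction G W] [FaithfulSMul G W] [IsPretransitive G W] (x0 : W)
    (hW : Nat.card W = 306936) (hF : IsSimpleGroup (stabilizer G x0)) (A B : Set W) (hAB : ∀ x, x ≠ x0 → x ∈ A ∨ x ∈ B)
    (hA : ∀ x ∈ A, ∀ y ∈ A, ∃ g : G, g • x0 = x0 ∧ g • x = y)
    (hB : ∀ x ∈ B, ∀ y ∈ B, ∃ g : G, g • x0 = x0 ∧ g • x = y)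
    (hAc : A.ncard = 31671) (hBc : B.ncard = 275264) : IsSimpleGroup G := by
  haveI : Finite W := Nat.finite_of_card_ne_zero (by rw [hW]; norm_num)
  have huniv : (Set.univ : Set W).ncard = 306936 := by rw [Set.ncard_univ, hW]
  have hcov : (Set.univ : Set W) ⊆ insert x0 (A ∪ B) := by
    intro x _
    by_cases hx : x = x0
    · rw [hx]; exact Set.mem_insert _ _
    · exact Set.mem_insert_of_mem _ (hAB x hx)
  have hle := Set.ncard_union_le A B
  have hABx : x0 ∉ A ∪ B := by
    intro h
    have h1 : (Set.univ : Set W) ⊆ A ∪ B := by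
      intro x hx
      rcases hcov hx with h2 | h2
      · rw [h2]; exact h
      · exact h2
    have h2 := Set.ncard_le_ncard h1 (Set.toFinite _)
    omega
  have hxA : x0 ∉ A := fun h => hABx (Or.inl h)
  have hxB : x0 ∉ B := fun h => hABx (Or.inr h)
  haveI hnt : Nontrivial G := by
    haveI : Nontrivial (stabilizer G x0) := hF.toNontrivial
    obtain ⟨x, y, hxy⟩ := exists_pair_ne (stabilizer G x0)
    exact ⟨⟨x, y, fun h => hxy (Subtype.ext h)⟩⟩
  refine { eq_bot_or_eq_top_of_normal := fun N hN => ?_ }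
  haveI := hN
  by_cases hNb : N = ⊥
  · exact Or.inl hNb
  right
  set O : Set W := orbit N x0 with hO
  have hOx : x0 ∈ O := mem_orbit_self x0
  have hOF : ∀ g : G, g • x0 = x0 → ∀ x ∈ O, g • x ∈ O := by
    rintro g hg x ⟨n, rfl⟩
    refine ⟨⟨g * n * g⁻¹, hN.conj_mem n n.2 g⟩, ?_⟩
    change (g * n * g⁻¹) • x0 = g • ((n : G) • x0)
    have hg' : g⁻¹ • x0 = x0 := by rw [inv_smul_eq_iff, hg]
    rw [mul_smul, hg', mul_smul]
  have hAO : (∃ x ∈ A, x ∈ O) → A ⊆ O := by
    rintro ⟨x, hx, hxO⟩ y hy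
    obtain ⟨g, hg, rfl⟩ := hA x hx y hy
    exact hOF g hg x hxO
  have hBO : (∃ x ∈ B, x ∈ O) → B ⊆ O := by
    rintro ⟨x, hx, hxO⟩ y hy
    obtain ⟨g, hg, rfl⟩ := hB x hx y hy
    exact hOF g hg x hxO
  have hdvd : O.ncard ∣ 306936 := by
    rw [← hW]
    exact (IsBlock.orbit_of_normal (N := N) x0).ncard_dvd_card ⟨x0, hOx⟩
  have hOtop : O = Set.univ := by
    by_cases h1 : ∃ x ∈ A, x ∈ O
    · have h1' := hAO h1
      by_cases h2 : ∃ x ∈ B, x ∈ O
      · have h2' := hBO h2
        rw [Set.eq_univ_iff_forall]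
        intro x
        rcases hcov (Set.mem_univ x) with h3 | h3 | h3
        · rw [h3]; exact hOx
        · exact h1' h3
        · exact h2' h3
      · exfalso
        have h3 : O = insert x0 A := by
          apply Set.Subset.antisymm
          · intro x hx
            rcases hcov (Set.mem_univ x) with h3 | h3 | h3
            · rw [h3]; exact Set.mem_insert _ _
            · exact Set.mem_insert_of_mem _ h3
            · exact absurd ⟨x, h3, hx⟩ h2
          · intro x hx
            rcases hx with h3 | h3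
            · rw [h3]; exact hOx
            · exact h1' h3
        rw [h3, Set.ncard_insert_of_notMem hxA (Set.toFinite _), hAc] at hdvd
        norm_num at hdvd
    · by_cases h2 : ∃ x ∈ B, x ∈ O
      · exfalso
        have h2' := hBO h2
        have h3 : O = insert x0 B := by
          apply Set.Subset.antisymm
          · intro x hx
            rcases hcov (Set.mem_univ x) with h3 | h3 | h3
            · rw [h3]; exact Set.mem_insert _ _
            · exact absurd ⟨x, h3, hx⟩ h1
            · exact Set.mem_insert_of_mem _ h3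
          · intro x hx
            rcases hx with h3 | h3
            · rw [h3]; exact hOx
            · exact h2' h3
        rw [h3, Set.ncard_insert_of_notMem hxB (Set.toFinite _), hBc] at hdvd
        norm_num at hdvd
      · exfalso
        apply hNb
        rw [eq_bot_iff]
        intro n hn
        have h3 : ∀ m ∈ N, m • x0 = x0 := by
          intro m hm
          have hmO : m • x0 ∈ O := ⟨⟨m, hm⟩, rfl⟩
          rcases hcov (Set.mem_univ (m • x0)) with h3 | h3 | h3
          · exact h3
          · exact absurd ⟨_, h3, hmO⟩ h1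
          · exact absurd ⟨_, h3, hmO⟩ h2
        rw [Subgroup.mem_bot]
        apply FaithfulSMul.eq_of_smul_eq_smul (α := W)
        intro x
        obtain ⟨g, rfl⟩ := exists_smul_eq G x0 x
        have h4 := h3 (g⁻¹ * n * g) (by simpa using hN.conj_mem n hn g⁻¹)
        rw [one_smul, smul_smul]
        rw [mul_assoc, mul_smul, inv_smul_eq_iff] at h4
        exact h4
  -- `N` is transitive
  have htr : ∀ x : W, ∃ n ∈ N, n • x0 = x := by
    intro x
    have : x ∈ O := by rw [hOtop]; trivial
    obtain ⟨n, hn⟩ := this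
    exact ⟨n, n.2, hn⟩
  haveI hNF : (N.subgroupOf (stabilizer G x0)).Normal := inferInstance
  rcases hF.eq_bot_or_eq_top_of_normal _ hNF with h | h
  · exfalso
    -- `N` is regular
    have hreg : ∀ n ∈ N, n • x0 = x0 → n = 1 := by
      intro n hn hnx
      have h1 : (⟨n, hnx⟩ : stabilizer G x0) ∈ N.subgroupOf (stabilizer G x0) := hn
      rw [h, Subgroup.mem_bot] at h1
      exact congrArg Subtype.val h1
    have hinj : ∀ n ∈ N, ∀ m ∈ N, n • x0 = m • x0 → n = m := by
      intro n hn m hm hnm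
      have h1 : (m⁻¹ * n) • x0 = x0 := by rw [mul_smul, hnm, inv_smul_smul]
      exact (inv_mul_eq_one.1 (hreg _ (N.mul_mem (N.inv_mem hm) hn) h1)).symm
    have hcN : Nat.card N = 306936 := by
      rw [← hW]
      refine Nat.card_congr (Equiv.ofBijective (fun n : N => (n : G) • x0) ⟨?_, ?_⟩)
      · intro n m hnm
        exact Subtype.ext (hinj n n.2 m m.2 hnm)
      · intro x
        obtain ⟨n, hn, hx⟩ := htr x
        exact ⟨⟨n, hn⟩, hx⟩
    haveI : Fact (Nat.Prime 2) := ⟨by norm_num⟩
    haveI : Fact (Nat.Prime 3) := ⟨by norm_num⟩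
    haveI : Fact (Nat.Prime 7) := ⟨by norm_num⟩
    obtain ⟨a, ha⟩ := exists_prime_orderOf_dvd_card' (G := N) 2 (by rw [hcN]; norm_num)
    obtain ⟨b, hb⟩ := exists_prime_orderOf_dvd_card' (G := N) 3 (by rw [hcN]; norm_num)
    obtain ⟨c, hc⟩ := exists_prime_orderOf_dvd_card' (G := N) 7 (by rw [hcN]; norm_num)
    have hmem : ∀ n : N, orderOf n ≠ 1 → (n : G) • x0 ∈ A ∨ (n : G) • x0 ∈ B := by
      intro n hn
      apply hAB
      intro h1
      apply hn
      rw [orderOf_eq_one_iff]
      exact Subtype.ext (hreg n n.2 h1)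
    have hord : ∀ n m : N, (∃ g : G, g • x0 = x0 ∧ g • ((n : G) • x0) = (m : G) • x0) → orderOf n = orderOf m := by
      rintro n m ⟨g, hg, hgn⟩
      have hg' : g⁻¹ • x0 = x0 := by rw [inv_smul_eq_iff, hg]
      have h1 : (g * n * g⁻¹) • x0 = (m : G) • x0 := by
        rw [mul_smul, hg', mul_smul, hgn]
      have h2 := hinj _ (hN.conj_mem n n.2 g) _ m.2 h1
      rw [← Subgroup.orderOf_coe, ← Subgroup.orderOf_coe m, ← h2]
      have h3 : g * (n : G) * g⁻¹ = MulAut.conj g (n : G) := rfl
      rw [h3]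
      exact (MulEquiv.orderOf_eq (MulAut.conj g) (n : G)).symm
    have key : ∀ n m : N, orderOf n ≠ orderOf m → ((n : G) • x0 ∈ A → (m : G) • x0 ∉ A) ∧ ((n : G) • x0 ∈ B → (m : G) • x0 ∉ B) := by
      intro n m hnm
      exact ⟨fun h1 h2 => hnm (hord n m (hA _ h1 _ h2)), fun h1 h2 => hnm (hord n m (hB _ h1 _ h2))⟩
    have kab := key a b (by rw [ha, hb]; norm_num)
    have kac := key a c (by rw [ha, hc]; norm_num)
    have kbc := key b c (by rw [hb, hc]; norm_num)
    have ma := hmem a (by rw [ha]; norm_num)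
    have mb := hmem b (by rw [hb]; norm_num)
    have mc := hmem c (by rw [hc]; norm_num)
    rcases ma with ma | ma <;> rcases mb with mb | mb <;> rcases mc with mc | mc <;>
      first
      | exact kab.1 ma mb
      | exact kab.2 ma mb
      | exact kac.1 ma mc
      | exact kac.2 ma mc
      | exact kbc.1 mb mc
      | exact kbc.2 mb mc
  · rw [eq_top_iff]
    intro g _
    obtain ⟨n, hn, hx⟩ := htr (g • x0)
    have h1 : n⁻¹ * g ∈ stabilizer G x0 := by
      rw [mem_stabilizer_iff, mul_smul, ← hx, inv_smul_smul]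
    have h2 : (⟨n⁻¹ * g, h1⟩ : stabilizer G x0) ∈ N.subgroupOf (stabilizer G x0) := by rw [h]; trivial
    have h3 : n⁻¹ * g ∈ N := h2
    have h4 := N.mul_mem hn h3
    rwa [mul_inv_cancel_left] at h4

end Cfsg.Agent.H1.Rank3
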