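import Mathlib
import Cfsg.Prelude.Def_Spor_Fi24
import Cfsg.Prelude.Def_Spor_Fi23
import Cfsg.Prelude.Def_Sporadic
import Cfsg.Agent.H1_Rank3

/-! Assembly of the presented group Fi24 from the coset action on 306936 points. -/

set_option autoImplicit false
set_option linter.all false

namespace Cfsg.Agent.H12.Fi24A

open Cfsg Cfsg.Spor Subgroup

abbrev RR : Set (FreeGroup Fi24.Gen) := coxRelators Fi24.edges ∪ {r | r ∈ Fi24.extra}

/-- the generators -/
def γ (g : Fi24.Gen) : Spor.Fi24 := PresentedGroup.of g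

theorem mem_nodes (g : Fi24.Gen) : g ∈ coxNodes Fi24.edges := by cases g <;> decide

theorem rel (x y : Fi24.Gen) : (γ x * γ y) ^ (coxLabel Fi24.edges x y) = 1 := by
  have h : (FreeGroup.of x * FreeGroup.of y) ^ (coxLabel Fi24.edges x y) ∈ RR :=
    Or.inl ⟨x, mem_nodes x, y, mem_nodes y, rfl⟩
  have h1 := PresentedGroup.one_of_mem h
  rw [map_pow, map_mul] at h1
  exact h1

theorem sq (x : Fi24.Gen) : γ x * γ x = 1 := by
  have h := rel x x
  have h1 : coxLabel Fi24.edges x x = 1 := by unfold coxLabel; rw [if_pos rfl]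
  rwa [h1, pow_one] at h

theorem inv (x : Fi24.Gen) : (γ x)⁻¹ = γ x := inv_eq_of_mul_eq_one_left (sq x)

theorem comm {x y : Fi24.Gen} (h : coxLabel Fi24.edges x y = 2) : γ x * γ y = γ y * γ x := by
  have h1 := rel x y
  rw [h, pow_two] at h1
  have h2 : γ x * γ y = (γ x * γ y)⁻¹ := eq_inv_of_mul_eq_one_left h1
  rw [mul_inv_rev, inv, inv] at h2
  exact h2

theorem braid {x y : Fi24.Gen} (h : coxLabel Fi24.edges x y = 3) : γ x * γ y * γ x = γ y * γ x * γ y := by
  have h1 := rel x y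
  rw [h, pow_succ, pow_two] at h1
  have h2 : γ x * γ y * (γ x * γ y) = (γ x * γ y)⁻¹ := eq_inv_of_mul_eq_one_left h1
  rw [mul_inv_rev, inv, inv] at h2
  have h3 : γ x * γ y * γ x = γ y * γ x * (γ y)⁻¹ := by
    rw [eq_mul_inv_iff_mul_eq, ← h2]; group
  rw [h3, inv]

open Fi24.Gen in
theorem rel_l : γ l = (γ a * γ b * γ c * γ d * γ e * γ f * γ h) ^ 9 := by
  have h : Fi24.l * (((Fi24.a * Fi24.b * Fi24.c * Fi24.d * Fi24.e * Fi24.f * Fi24.h) ^ 9)⁻¹) ∈ RR := Or.inr (by simp [Fi24.extra])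
  have h1 := PresentedGroup.one_of_mem h
  rw [map_mul, map_inv, mul_inv_eq_one, map_pow, map_mul, map_mul, map_mul, map_mul, map_mul, map_mul] at h1
  exact h1

/-- the sign -/
theorem exists_eps : ∃ ε : Spor.Fi24 →* ℤˣ, ∀ g, ε (γ g) = -1 := by
  have h : ∀ r ∈ RR, FreeGroup.lift (fun _ : Fi24.Gen => (-1 : ℤˣ)) r = 1 := by
    rintro r (⟨x, -, y, -, rfl⟩ | hr)
    · simp
    · have hr' : r = Fi24.l * (((Fi24.a * Fi24.b * Fi24.c * Fi24.d * Fi24.e * Fi24.f * Fi24.h) ^ 9)⁻¹) ∨
          r = (Fi24.d * Fi24.c * Fi24.b * Fi24.a * Fi24.k * Fi24.l * Fi24.d * Fi24.e * Fi24.f * Fi24.g * Fi24.j * Fi24.d * Fi24.h * Fi24.i) ^ 17 := by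
        have : r ∈ Fi24.extra := hr
        simpa [Fi24.extra] using this
      rcases hr' with rfl | rfl
      · simp only [map_mul, map_inv, map_pow, FreeGroup.lift_apply_of]
        decide
      · simp only [map_mul, map_inv, map_pow, FreeGroup.lift_apply_of]
        decide
  exact ⟨PresentedGroup.toGroup h, fun g => PresentedGroup.toGroup.of h⟩

noncomputable def ε : Spor.Fi24 →* ℤˣ := exists_eps.choose

theorem ε_γ (g : Fi24.Gen) : ε (γ g) = -1 := exists_eps.choose_spec g

theorem closure_top : closure (Set.range γ) = ⊤ := PresentedGroup.closure_range_of RR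

/-- all generators have the same image in an abelian quotient -/
theorem same {A : Type*} [CommGroup A] (f : Spor.Fi24 →* A) (g g' : Fi24.Gen) : f (γ g) = f (γ g') := by
  have key : ∀ x y : Fi24.Gen, coxLabel Fi24.edges x y = 3 → f (γ x) = f (γ y) := by
    intro x y h
    have h1 := congrArg f (braid h)
    rw [map_mul, map_mul, map_mul, map_mul, mul_comm (f (γ y)) (f (γ x))] at h1
    exact mul_left_cancel h1
  have e1 : f (γ .l) = f (γ .k) := key _ _ (by decide)
  have e2 : f (γ .k) = f (γ .a) := key _ _ (by decide)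
  have e3 : f (γ .a) = f (γ .b) := key _ _ (by decide)
  have e4 : f (γ .b) = f (γ .c) := key _ _ (by decide)
  have e5 : f (γ .c) = f (γ .d) := key _ _ (by decide)
  have e6 : f (γ .d) = f (γ .e) := key _ _ (by decide)
  have e7 : f (γ .d) = f (γ .h) := key _ _ (by decide)
  have e8 : f (γ .e) = f (γ .f) := key _ _ (by decide)
  have e9 : f (γ .f) = f (γ .g) := key _ _ (by decide)
  have e10 : f (γ .g) = f (γ .j) := key _ _ (by decide)
  have e11 : f (γ .h) = f (γ .i) := key _ _ (by decide)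
  have hd : ∀ g, f (γ g) = f (γ .d) := by
    intro g
    cases g
    · rw [e1, e2, e3, e4, e5]
    · rw [e2, e3, e4, e5]
    · rw [e3, e4, e5]
    · rw [e4, e5]
    · rw [e5]
    · rfl
    · rw [e6]
    · rw [e6, e8]
    · rw [e6, e8, e9]
    · rw [e6, e8, e9, e10]
    · rw [e7]
    · rw [e7, e11]
  rw [hd g, hd g']

theorem ker_eps : ε.ker = commutator Spor.Fi24 := by
  apply le_antisymm
  · have key : ∀ x : Spor.Fi24, (ε x = 1 ∧ Abelianization.of x = 1) ∨ (ε x = -1 ∧ Abelianization.of x = Abelianization.of (γ .d)) := by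
      intro x
      have hx : x ∈ closure (Set.range γ) := by rw [closure_top]; trivial
      have ht : Abelianization.of (γ .d) * Abelianization.of (γ .d) = 1 := by
        rw [← map_mul, sq, map_one]
      induction hx using closure_induction with
      | mem x hx =>
        obtain ⟨g, rfl⟩ := hx
        exact Or.inr ⟨ε_γ g, same _ _ _⟩
      | one => exact Or.inl ⟨map_one _, map_one _⟩
      | mul x y _ _ ihx ihy =>
        rcases ihx with ⟨h1, h2⟩ | ⟨h1, h2⟩ <;> rcases ihy with ⟨h3, h4⟩ | ⟨h3, h4⟩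
        · left; rw [map_mul, map_mul, h1, h2, h3, h4]; exact ⟨mul_one _, mul_one _⟩
        · right; rw [map_mul, map_mul, h1, h2, h3, h4]; exact ⟨one_mul _, one_mul _⟩
        · right; rw [map_mul, map_mul, h1, h2, h3, h4]; exact ⟨mul_one _, mul_one _⟩
        · left; rw [map_mul, map_mul, h1, h2, h3, h4]; exact ⟨by decide, ht⟩
      | inv x _ ih =>
        rcases ih with ⟨h1, h2⟩ | ⟨h1, h2⟩
        · left; rw [map_inv, map_inv, h1, h2]; exact ⟨inv_one, inv_one⟩
        · right; rw [map_inv, map_inv, h1, h2]; exact ⟨by decide, inv_eq_of_mul_eq_one_left ht⟩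
    intro x hx
    rw [MonoidHom.mem_ker] at hx
    rcases key x with ⟨-, h2⟩ | ⟨h1, -⟩
    · exact (QuotientGroup.eq_one_iff x).1 h2
    · rw [hx] at h1
      exact absurd h1 (by decide)
  · exact Abelianization.commutator_subset_ker ε

/-- the subgroup generated by all generators but `k` -/
def H : Subgroup Spor.Fi24 := closure (γ '' {g | g ≠ Fi24.Gen.k})

theorem mem_H {g : Fi24.Gen} (h : g ≠ .k) : γ g ∈ H := subset_closure ⟨g, h, rfl⟩

theorem l_comm : ∀ x ∈ H, γ .l * x = x * γ .l := by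
  intro x hx
  have h1 : H ≤ centralizer ({γ .l} : Set Spor.Fi24) := by
    rw [H, closure_le]
    rintro _ ⟨g, hg, rfl⟩
    rw [SetLike.mem_coe, mem_centralizer_singleton_iff]
    by_cases hl : g = .l
    · rw [hl]
    · refine comm ?_
      have hg' : g ≠ .k := hg
      revert hg' hl
      cases g <;> decide
  exact (mem_centralizer_singleton_iff.1 (h1 hx)).symm

/-- the inclusion of the generators of Fi23 -/
def ι : Fi23.Gen → Fi24.Gen
  | .a => .a
  | .b => .b
  | .c => .c
  | .d => .d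
  | .e => .e
  | .f => .f
  | .g => .g
  | .j => .j
  | .h => .h
  | .i => .i

theorem ι_ne (x : Fi23.Gen) : ι x ≠ .k := by cases x <;> decide

theorem ι_label (x y : Fi23.Gen) : coxLabel Fi24.edges (ι x) (ι y) = coxLabel Fi23.edges x y := by
  cases x <;> cases y <;> decide

/-- `x ↦ x l` -/
def tw (x : Fi23.Gen) : Spor.Fi24 := γ (ι x) * γ .l

theorem tw_mul (x y : Fi23.Gen) : tw x * tw y = γ (ι x) * γ (ι y) := by
  unfold tw
  have h1 := l_comm (γ (ι y)) (mem_H (ι_ne y))
  calc γ (ι x) * γ .l * (γ (ι y) * γ .l) = γ (ι x) * (γ .l * γ (ι y)) * γ .l := by group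
    _ = γ (ι x) * γ (ι y) * (γ .l * γ .l) := by rw [h1]; group
    _ = _ := by rw [sq, mul_one]

theorem exists_theta (spider : (γ .d * γ .c * γ .b * γ .d * γ .e * γ .f * γ .d * γ .h * γ .i) ^ 10 = 1) :
    ∃ θ : Spor.Fi23 →* Spor.Fi24, ∀ x, θ (PresentedGroup.of x) = tw x := by
  have h : ∀ r ∈ (coxRelators Fi23.edges ∪ {r | r ∈ Fi23.extra} : Set (FreeGroup Fi23.Gen)), FreeGroup.lift tw r = 1 := by
    rintro r (⟨x, -, y, -, rfl⟩ | hr)
    · rw [map_pow, map_mul, FreeGroup.lift_apply_of, FreeGroup.lift_apply_of, tw_mul, ← ι_label]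
      exact rel _ _
    · have hr' : r = (Fi23.d * Fi23.c * Fi23.b * Fi23.d * Fi23.e * Fi23.f * Fi23.d * Fi23.h * Fi23.i) ^ 10 ∨
          r = (Fi23.a * Fi23.b * Fi23.c * Fi23.d * Fi23.e * Fi23.f * Fi23.h) ^ 9 := by
        have : r ∈ Fi23.extra := hr
        simpa [Fi23.extra] using this
      rcases hr' with rfl | rfl
      · simp only [map_mul, map_pow, FreeGroup.lift_apply_of]
        have e : tw .d * tw .c * tw .b * tw .d * tw .e * tw .f * tw .d * tw .h * tw .i =
            (γ .d * γ .c * γ .b * γ .d * γ .e * γ .f * γ .d * γ .h * γ .i) * γ .l := by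
          calc tw .d * tw .c * tw .b * tw .d * tw .e * tw .f * tw .d * tw .h * tw .i
              = (tw .d * tw .c) * (tw .b * tw .d) * (tw .e * tw .f) * (tw .d * tw .h) * tw .i := by group
            _ = _ := by
              rw [tw_mul, tw_mul, tw_mul, tw_mul]
              show _ = _
              unfold tw ι
              group
        rw [e]
        have hw : γ .d * γ .c * γ .b * γ .d * γ .e * γ .f * γ .d * γ .h * γ .i ∈ H := by
          repeat' apply mul_mem
          all_goals exact mem_H (by decide)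
        have hc : Commute (γ .d * γ .c * γ .b * γ .d * γ .e * γ .f * γ .d * γ .h * γ .i) (γ .l) := (l_comm _ hw).symm
        rw [hc.mul_pow, spider, one_mul]
        have : (γ .l) ^ 2 = 1 := by rw [pow_two, sq]
        rw [show 10 = 2 * 5 by norm_num, pow_mul, this, one_pow]
      · simp only [map_mul, map_pow, FreeGroup.lift_apply_of]
        have e : tw .a * tw .b * tw .c * tw .d * tw .e * tw .f * tw .h =
            (γ .a * γ .b * γ .c * γ .d * γ .e * γ .f * γ .h) * γ .l := by
          calc tw .a * tw .b * tw .c * tw .d * tw .e * tw .f * tw .h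
              = (tw .a * tw .b) * (tw .c * tw .d) * (tw .e * tw .f) * tw .h := by group
            _ = _ := by
              rw [tw_mul, tw_mul, tw_mul]
              show _ = _
              unfold tw ι
              group
        rw [e]
        have hw : γ .a * γ .b * γ .c * γ .d * γ .e * γ .f * γ .h ∈ H := by
          repeat' apply mul_mem
          all_goals exact mem_H (by decide)
        have hc : Commute (γ .a * γ .b * γ .c * γ .d * γ .e * γ .f * γ .h) (γ .l) := (l_comm _ hw).symm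
        rw [hc.mul_pow, ← rel_l]
        have : (γ .l) ^ 2 = 1 := by rw [pow_two, sq]
        rw [show 9 = 2 * 4 + 1 by norm_num, pow_succ, pow_mul, this, one_pow, one_mul, sq]
  exact ⟨PresentedGroup.toGroup h, fun g => PresentedGroup.toGroup.of h⟩

section Theta

variable {θ : Spor.Fi23 →* Spor.Fi24} (hθ : ∀ x, θ (PresentedGroup.of x) = tw x)

include hθ

theorem theta_mem (y : Spor.Fi23) : θ y ∈ H ∧ ε (θ y) = 1 := by
  have h1 : θ.range ≤ H ⊓ ε.ker := by
    rw [MonoidHom.range_eq_map, ← PresentedGroup.closure_range_of, MonoidHom.map_closure, closure_le]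
    rintro _ ⟨_, ⟨x, rfl⟩, rfl⟩
    rw [hθ]
    refine ⟨mul_mem (mem_H (ι_ne x)) (mem_H (by decide)), ?_⟩
    show ε (tw x) = 1
    rw [tw, map_mul, ε_γ, ε_γ]
    decide
  have h2 := h1 ⟨y, rfl⟩
  exact ⟨h2.1, h2.2⟩

theorem dec : ∀ h ∈ H, h ∈ θ.range ∨ h * γ .l ∈ θ.range := by
  intro h hh
  have hl2 : γ .l * γ .l = 1 := sq _
  induction hh using closure_induction with
  | mem x hx =>
    obtain ⟨g, hg, rfl⟩ := hx
    by_cases hl : g = .l
    · right
      rw [hl, sq]; exact one_mem _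
    · right
      have : ∃ x, ι x = g := by
        have hg' : g ≠ .k := hg
        revert hg' hl
        cases g
        · intro h _; exact absurd rfl h
        · intro _ h; exact absurd rfl h
        · exact fun _ _ => ⟨.a, rfl⟩
        · exact fun _ _ => ⟨.b, rfl⟩
        · exact fun _ _ => ⟨.c, rfl⟩
        · exact fun _ _ => ⟨.d, rfl⟩
        · exact fun _ _ => ⟨.e, rfl⟩
        · exact fun _ _ => ⟨.f, rfl⟩
        · exact fun _ _ => ⟨.g, rfl⟩
        · exact fun _ _ => ⟨.j, rfl⟩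
        · exact fun _ _ => ⟨.h, rfl⟩
        · exact fun _ _ => ⟨.i, rfl⟩
      obtain ⟨x, rfl⟩ := this
      exact ⟨PresentedGroup.of x, hθ x⟩
  | one => left; exact one_mem _
  | mul x y hx hy ihx ihy =>
    have hc : γ .l * y = y * γ .l := l_comm y hy
    rcases ihx with h1 | h1 <;> rcases ihy with h2 | h2
    · left; exact mul_mem h1 h2
    · right; rw [mul_assoc]; exact mul_mem h1 h2
    · right
      have : x * y * γ .l = x * γ .l * y := by rw [mul_assoc, ← hc, mul_assoc]
      rw [this]; exact mul_mem h1 h2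
    · left
      have : x * y = x * γ .l * (y * γ .l) := by
        calc x * y = x * (γ .l * γ .l) * y := by rw [hl2, mul_one]
          _ = x * γ .l * (γ .l * y) := by group
          _ = _ := by rw [hc]
      rw [this]; exact mul_mem h1 h2
  | inv x hx ih =>
    have hc : γ .l * x = x * γ .l := l_comm x hx
    rcases ih with h1 | h1
    · left; exact inv_mem h1
    · right
      have : x⁻¹ * γ .l = (x * γ .l)⁻¹ := by
        rw [← hc, mul_inv_rev, inv]
      rw [this]; exact inv_mem h1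

theorem mem_range_of {h : Spor.Fi24} (hh : h ∈ H) (he : ε h = 1) : h ∈ θ.range := by
  rcases dec hθ h hh with h1 | ⟨y, hy⟩
  · exact h1
  · have h2 := (theta_mem hθ y).2
    rw [hy, map_mul, he, ε_γ] at h2
    exact absurd h2 (by decide)

end Theta

/-- the data delivered by the computation -/
structure Data (φ : Spor.Fi24 →* Equiv.Perm (Fin 306936)) (b0 : Fin 306936) (A B : Set (Fin 306936)) : Prop where
  hidx0 : H.index ≠ 0
  hidx : H.index ≤ 306936
  spider : (γ .d * γ .c * γ .b * γ .d * γ .e * γ .f * γ .d * γ .h * γ .i) ^ 10 = 1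
  hb : ∀ g, g ≠ Fi24.Gen.k → φ (γ g) b0 = b0
  htr : ∀ i, ∃ g, φ g b0 = i
  hAB : ∀ i, i ≠ b0 → i ∈ A ∨ i ∈ B
  hA : ∀ i ∈ A, ∀ j ∈ A, ∃ h ∈ H, φ h i = j
  hB : ∀ i ∈ B, ∀ j ∈ B, ∃ h ∈ H, φ h i = j
  hAc : A.ncard = 31671
  hBc : B.ncard = 275264
  a0 : ∃ i ∈ A, φ (γ .a) i = i
  k0 : ∃ i ∈ B, φ (γ .b) i = i

@[reducible] def act (φ : Spor.Fi24 →* Equiv.Perm (Fin 306936)) : MulAction Spor.Fi24 (Fin 306936) := MulAction.compHom _ φ

section Main

variable {φ : Spor.Fi24 →* Equiv.Perm (Fin 306936)} {b0 : Fin 306936} {A B : Set (Fin 306936)}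

theorem stab (D : Data φ b0 A B) : H.index = 306936 ∧ ∀ g, φ g b0 = b0 → g ∈ H := by
  letI := act φ
  have hle : H ≤ MulAction.stabilizer Spor.Fi24 b0 := by
    rw [H, closure_le]
    rintro _ ⟨g, hg, rfl⟩
    exact D.hb g hg
  have hi : (MulAction.stabilizer Spor.Fi24 b0).index = 306936 := by
    rw [MulAction.index_stabilizer]
    have : MulAction.orbit Spor.Fi24 b0 = Set.univ := by
      ext i
      simp only [Set.mem_univ, iff_true]
      obtain ⟨g, hg⟩ := D.htr i
      exact ⟨g, hg⟩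
    rw [this, Set.ncard_univ, Nat.card_eq_fintype_card, Fintype.card_fin]
  have hd := index_dvd_of_le hle
  rw [hi] at hd
  have h1 : H.index = 306936 := le_antisymm D.hidx (Nat.le_of_dvd (Nat.pos_of_ne_zero D.hidx0) hd)
  refine ⟨h1, ?_⟩
  have h2 := relIndex_mul_index hle
  rw [hi, h1] at h2
  have h3 : H.relIndex (MulAction.stabilizer Spor.Fi24 b0) = 1 := by omega
  have h4 := relIndex_eq_one.1 h3
  intro g hg
  exact h4 hg

theorem not_triv (D : Data φ b0 A B) {θ : Spor.Fi23 →* Spor.Fi24} (hθ : ∀ x, θ (PresentedGroup.of x) = tw x) :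
    ¬ (∀ y, φ (θ y) = 1) := by
  intro h
  have hne : A.Nonempty := by
    rw [Set.nonempty_iff_ne_empty]
    rintro rfl
    have := D.hAc
    rw [Set.ncard_empty] at this
    omega
  obtain ⟨i, hi⟩ := hne
  have hsub : A ⊆ {i, (φ (γ .l))⁻¹ i} := by
    intro j hj
    obtain ⟨g, hg, hgj⟩ := D.hA i hi j hj
    rcases dec hθ g hg with ⟨y, hy⟩ | ⟨y, hy⟩
    · left
      rw [← hgj, ← hy, h y]; rfl
    · right
      have h1 := h y
      rw [hy, map_mul] at h1
      have h2 : φ g = (φ (γ .l))⁻¹ := eq_inv_of_mul_eq_one_left h1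
      rw [← hgj, h2]; rfl
  have h1 := Set.ncard_le_ncard hsub (Set.toFinite _)
  have h2 := Set.ncard_insert_le i {(φ (γ .l))⁻¹ i}
  rw [Set.ncard_singleton] at h2
  rw [D.hAc] at h1
  omega

theorem inj (D : Data φ b0 A B) (hs : IsSimpleGroup Spor.Fi23) {θ : Spor.Fi23 →* Spor.Fi24}
    (hθ : ∀ x, θ (PresentedGroup.of x) = tw x) : Function.Injective (φ.comp θ) := by
  rw [← MonoidHom.ker_eq_bot_iff]
  rcases hs.eq_bot_or_eq_top_of_normal (φ.comp θ).ker inferInstance with h | h
  · exact h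
  · exfalso
    apply not_triv D hθ
    intro y
    have : y ∈ (φ.comp θ).ker := by rw [h]; trivial
    exact this

theorem eps_range : ε.range = ⊤ := by
  rw [MonoidHom.range_eq_top]
  intro u
  rcases Int.units_eq_one_or u with rfl | rfl
  · exact ⟨1, map_one _⟩
  · exact ⟨γ .l, ε_γ _⟩

theorem card_units : Nat.card ℤˣ = 2 := by
  rw [Nat.card_eq_fintype_card]; rfl

theorem card_H (D : Data φ b0 A B) (hs : IsSimpleGroup Spor.Fi23) (hc : Nat.card Spor.Fi23 = 4089470473293004800) :
    Nat.card H = 2 * 4089470473293004800 := by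
  obtain ⟨θ, hθ⟩ := exists_theta D.spider
  have hinj : Function.Injective θ := by
    have := inj D hs hθ
    exact Function.Injective.of_comp this
  have h1 := card_mul_index (ε.comp H.subtype).ker
  have h2 : (ε.comp H.subtype).ker.index = 2 := by
    rw [Subgroup.index_ker]
    have : (ε.comp H.subtype).range = ⊤ := by
      rw [MonoidHom.range_eq_top]
      intro u
      rcases Int.units_eq_one_or u with rfl | rfl
      · exact ⟨1, map_one _⟩
      · exact ⟨⟨γ .l, mem_H (by decide)⟩, ε_γ _⟩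
    rw [this, Subgroup.card_top, card_units]
  have h3 : Nat.card (ε.comp H.subtype).ker = Nat.card Spor.Fi23 := by
    symm
    refine Nat.card_congr (Equiv.ofBijective (fun y => (⟨⟨θ y, (theta_mem hθ y).1⟩, (theta_mem hθ y).2⟩ : (ε.comp H.subtype).ker)) ⟨?_, ?_⟩)
    · intro y z hyz
      exact hinj (congrArg (fun w => ((w : H) : Spor.Fi24)) (congrArg Subtype.val hyz))
    · rintro ⟨⟨g, hg⟩, hk⟩
      obtain ⟨y, hy⟩ := mem_range_of hθ hg hk
      exact ⟨y, Subtype.ext (Subtype.ext hy)⟩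
  rw [h2, h3, hc] at h1
  omega

theorem card_G (D : Data φ b0 A B) (hs : IsSimpleGroup Spor.Fi23) (hc : Nat.card Spor.Fi23 = 4089470473293004800) :
    Nat.card Spor.Fi24 = 2 * 4089470473293004800 * 306936 := by
  rw [← card_mul_index H, card_H D hs hc, (stab D).1]

theorem card_K (D : Data φ b0 A B) (hs : IsSimpleGroup Spor.Fi23) (hc : Nat.card Spor.Fi23 = 4089470473293004800) :
    Nat.card (commutator Spor.Fi24) = 1255205709190661721292800 := by
  have h1 := card_mul_index (commutator Spor.Fi24)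
  have h2 : (commutator Spor.Fi24).index = 2 := by
    rw [← ker_eps, Subgroup.index_ker, eps_range, Subgroup.card_top, card_units]
  rw [h2, card_G D hs hc] at h1
  omega

/-- move to an even element -/
theorem even_of (g u : Spor.Fi24) (hu : ε u = -1) : ∃ k ∈ commutator Spor.Fi24, (k = g ∨ k = g * u) := by
  rcases Int.units_eq_one_or (ε g) with h | h
  · exact ⟨g, by rw [← ker_eps]; exact h, Or.inl rfl⟩
  · refine ⟨g * u, ?_, Or.inr rfl⟩
    rw [← ker_eps, MonoidHom.mem_ker, map_mul, h, hu]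
    decide

theorem trans_aux (D : Data φ b0 A B) {C : Set (Fin 306936)} (hC : ∀ i ∈ C, ∀ j ∈ C, ∃ h ∈ H, φ h i = j) {g : Fi24.Gen} (hg : g ≠ .k)
    {i0 : Fin 306936} (hi0 : i0 ∈ C) (hfix : φ (γ g) i0 = i0) (i : Fin 306936) (hi : i ∈ C) (j : Fin 306936) (hj : j ∈ C) :
    ∃ k ∈ commutator Spor.Fi24, φ k b0 = b0 ∧ φ k i = j := by
  obtain ⟨h, hh, hhj⟩ := hC i hi j hj
  obtain ⟨s, hs, hsi⟩ := hC i0 hi0 i hi
  have hu : ε (s * γ g * s⁻¹) = -1 := by
    rw [map_mul, map_mul, map_inv, ε_γ, mul_right_comm, mul_inv_cancel, one_mul]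
  have hus : s * γ g * s⁻¹ ∈ H := mul_mem (mul_mem hs (mem_H hg)) (inv_mem hs)
  have hui : φ (s * γ g * s⁻¹) i = i := by
    have e1 : (φ s)⁻¹ (φ s i0) = i0 := (φ s).symm_apply_apply i0
    rw [map_mul, map_mul, map_inv, Equiv.Perm.mul_apply, Equiv.Perm.mul_apply, ← hsi, e1, hfix]
  have hfixH : ∀ x ∈ H, φ x b0 = b0 := by
    letI := act φ
    have hle : H ≤ MulAction.stabilizer Spor.Fi24 b0 := by
      rw [H, closure_le]
      rintro _ ⟨g, hg, rfl⟩
      exact D.hb g hg
    exact fun x hx => hle hx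
  obtain ⟨k, hk, hk'⟩ := even_of h _ hu
  refine ⟨k, hk, ?_, ?_⟩
  · rcases hk' with rfl | rfl
    · exact hfixH _ hh
    · exact hfixH _ (mul_mem hh hus)
  · rcases hk' with rfl | rfl
    · exact hhj
    · rw [map_mul, Equiv.Perm.mul_apply, hui, hhj]

theorem main (D : Data φ b0 A B) (hs : IsSimpleGroup Spor.Fi23) (hc : Nat.card Spor.Fi23 = 4089470473293004800) :
    Cfsg.IsFi24' Spor.Fi24' := by
  obtain ⟨θ, hθ⟩ := exists_theta D.spider
  have hinj := inj D hs hθ
  have hcK := card_K D hs hc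
  refine ⟨?_, hcK⟩
  letI := act φ
  haveI : Finite (commutator Spor.Fi24) := Nat.finite_of_card_ne_zero (by rw [hcK]; norm_num)
  have hsm : ∀ (g : commutator Spor.Fi24) (i : Fin 306936), g • i = φ g i := fun g i => rfl
  have hstH : ∀ g : commutator Spor.Fi24, φ g b0 = b0 → ∃ y, θ y = g := by
    intro g hg
    have hg1 : (g : Spor.Fi24) ∈ ε.ker := ker_eps.symm ▸ g.2
    obtain ⟨y, hy⟩ := mem_range_of hθ ((stab D).2 g hg) hg1
    exact ⟨y, hy⟩
  haveI : FaithfulSMul (commutator Spor.Fi24) (Fin 306936) := by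
    constructor
    intro g g' h
    have h1 : φ ((g'⁻¹ * g : commutator Spor.Fi24) : Spor.Fi24) = 1 := by
      ext i
      have h2 := h i
      rw [hsm, hsm] at h2
      have e1 : (φ (g' : Spor.Fi24))⁻¹ (φ g' i) = i := (φ g').symm_apply_apply i
      rw [coe_mul, coe_inv, map_mul, map_inv, Equiv.Perm.mul_apply, h2, e1]
      rfl
    obtain ⟨y, hy⟩ := hstH (g'⁻¹ * g) (by rw [h1]; rfl)
    have h2 : φ.comp θ y = φ.comp θ 1 := by
      rw [map_one]
      show φ (θ y) = 1
      rw [hy, h1]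
    have h3 := hinj h2
    rw [h3, map_one] at hy
    have h4 : (g'⁻¹ * g : commutator Spor.Fi24) = 1 := Subtype.ext hy.symm
    exact (inv_mul_eq_one.1 h4).symm
  haveI : MulAction.IsPretransitive (commutator Spor.Fi24) (Fin 306936) := by
    rw [MulAction.isPretransitive_iff_base b0]
    intro i
    obtain ⟨g, hg⟩ := D.htr i
    obtain ⟨k, hk, hk'⟩ := even_of g (γ .a) (ε_γ _)
    refine ⟨⟨k, hk⟩, ?_⟩
    rw [hsm]
    rcases hk' with rfl | rfl
    · exact hg
    · show φ (g * γ .a) b0 = i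
      rw [map_mul, Equiv.Perm.mul_apply, D.hb _ (by decide), hg]
  have hst : IsSimpleGroup (MulAction.stabilizer (commutator Spor.Fi24) b0) := by
    have hm : ∀ y, θ y ∈ commutator Spor.Fi24 := by
      intro y
      rw [← ker_eps]
      exact (theta_mem hθ y).2
    have hfixH : ∀ x ∈ H, φ x b0 = b0 := by
      have hle : H ≤ MulAction.stabilizer Spor.Fi24 b0 := by
        rw [H, closure_le]
        rintro _ ⟨g, hg, rfl⟩
        exact D.hb g hg
      exact fun x hx => hle hx
    let f : Spor.Fi23 →* MulAction.stabilizer (commutator Spor.Fi24) b0 :=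
      { toFun := fun y => ⟨⟨θ y, hm y⟩, hfixH _ (theta_mem hθ y).1⟩
        map_one' := by
          apply Subtype.ext; apply Subtype.ext
          exact map_one θ
        map_mul' := by
          intro y z
          apply Subtype.ext; apply Subtype.ext
          exact map_mul θ y z }
    have hf : Function.Surjective f := by
      rintro ⟨g, hg⟩
      obtain ⟨y, hy⟩ := hstH g hg
      exact ⟨y, Subtype.ext (Subtype.ext hy)⟩
    have hfi : Function.Injective f := by
      intro y z hyz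
      apply hinj
      show φ (θ y) = φ (θ z)
      have : θ y = θ z := congrArg (fun w => ((w : commutator Spor.Fi24) : Spor.Fi24)) (congrArg Subtype.val hyz)
      rw [this]
    haveI := hs
    haveI : Nontrivial (MulAction.stabilizer (commutator Spor.Fi24) b0) := hfi.nontrivial
    exact IsSimpleGroup.isSimpleGroup_of_surjective f hf
  obtain ⟨a0, ha0, ha0'⟩ := D.a0
  obtain ⟨k0, hk0, hk0'⟩ := D.k0
  refine H1.Rank3.rank3 (G := commutator Spor.Fi24) (W := Fin 306936) b0 (by rw [Nat.card_eq_fintype_card, Fintype.card_fin]) hst A B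
    D.hAB ?_ ?_ D.hAc D.hBc
  · intro i hi j hj
    obtain ⟨k, hk, h1, h2⟩ := trans_aux D D.hA (g := .a) (by decide) ha0 ha0' i hi j hj
    exact ⟨⟨k, hk⟩, h1, h2⟩
  · intro i hi j hj
    obtain ⟨k, hk, h1, h2⟩ := trans_aux D D.hB (g := .b) (by decide) hk0 hk0' i hi j hj
    exact ⟨⟨k, hk⟩, h1, h2⟩

theorem index (D : Data φ b0 A B) : (((Subgroup.closure ({Cfsg.Spor.Fi24.a, Cfsg.Spor.Fi24.b, Cfsg.Spor.Fi24.c, Cfsg.Spor.Fi24.d, Cfsg.Spor.Fi24.e, Cfsg.Spor.Fi24.f, Cfsg.Spor.Fi24.g, Cfsg.Spor.Fi24.h, Cfsg.Spor.Fi24.i, Cfsg.Spor.Fi24.j, Cfsg.Spor.Fi24.l} : Set (FreeGroup Cfsg.Spor.Fi24.Gen))).map (PresentedGroup.mk (Cfsg.Spor.coxRelators Cfsg.Spor.Fi24.edges ∪ {r | r ∈ Cfsg.Spor.Fi24.extra})))).index = 306936 := by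
  rw [← (stab D).1]
  congr 1
  rw [MonoidHom.map_closure, H]
  congr 1
  ext x
  constructor
  · rintro ⟨y, hy, rfl⟩
    simp only [Set.mem_insert_iff, Set.mem_singleton_iff] at hy
    rcases hy with rfl | rfl | rfl | rfl | rfl | rfl | rfl | rfl | rfl | rfl | rfl
    · exact ⟨.a, by decide, rfl⟩
    · exact ⟨.b, by decide, rfl⟩
    · exact ⟨.c, by decide, rfl⟩
    · exact ⟨.d, by decide, rfl⟩
    · exact ⟨.e, by decide, rfl⟩
    · exact ⟨.f, by decide, rfl⟩
    · exact ⟨.g, by decide, rfl⟩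
    · exact ⟨.h, by decide, rfl⟩
    · exact ⟨.i, by decide, rfl⟩
    · exact ⟨.j, by decide, rfl⟩
    · exact ⟨.l, by decide, rfl⟩
  · rintro ⟨g, hg, rfl⟩
    refine ⟨FreeGroup.of g, ?_, rfl⟩
    have hg' : g ≠ .k := hg
    revert hg'
    cases g <;> intro hg' <;> simp at *

end Main

end Cfsg.Agent.H12.Fi24A
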