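import Mathlib
import Cfsg.Prelude.Def_SporadicB
import Cfsg.Agent.H12_Fi24

/-! The 3-transposition class of Fi24, from the data of H12_Fi24. -/

set_option autoImplicit false
set_option linter.all false

namespace Cfsg.Agent.H12.Fi24A

open Cfsg Cfsg.Spor Subgroup

theorem mem_cjof {X : Type*} [Group X] {a x : X} : x ∈ conjugatesOf a ↔ IsConj a x := Iff.rfl

theorem conj_of_label {x y : Fi24.Gen} (h : coxLabel Fi24.edges x y = 3) :
    (γ x * γ y) * γ x * (γ x * γ y)⁻¹ = γ y := by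
  have h1 := braid h
  rw [mul_inv_rev]
  calc γ x * γ y * γ x * ((γ y)⁻¹ * (γ x)⁻¹) = (γ y * γ x * γ y) * ((γ y)⁻¹ * (γ x)⁻¹) := by rw [h1]
    _ = γ y := by group

theorem isConj_of_label {x y : Fi24.Gen} (h : coxLabel Fi24.edges x y = 3) : IsConj (γ x) (γ y) :=
  isConj_iff.2 ⟨γ x * γ y, conj_of_label h⟩

theorem isConj_l (g : Fi24.Gen) : IsConj (γ .l) (γ g) := by
  have k1 : IsConj (γ .l) (γ .k) := isConj_of_label (by decide)
  have k2 : IsConj (γ .l) (γ .a) := k1.trans (isConj_of_label (by decide))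
  have k3 : IsConj (γ .l) (γ .b) := k2.trans (isConj_of_label (by decide))
  have k4 : IsConj (γ .l) (γ .c) := k3.trans (isConj_of_label (by decide))
  have k5 : IsConj (γ .l) (γ .d) := k4.trans (isConj_of_label (by decide))
  have k6 : IsConj (γ .l) (γ .e) := k5.trans (isConj_of_label (by decide))
  have k7 : IsConj (γ .l) (γ .f) := k6.trans (isConj_of_label (by decide))
  have k8 : IsConj (γ .l) (γ .g) := k7.trans (isConj_of_label (by decide))
  have k9 : IsConj (γ .l) (γ .j) := k8.trans (isConj_of_label (by decide))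
  have k10 : IsConj (γ .l) (γ .h) := k5.trans (isConj_of_label (by decide))
  have k11 : IsConj (γ .l) (γ .i) := k10.trans (isConj_of_label (by decide))
  cases g
  exacts [IsConj.refl _, k1, k2, k3, k4, k5, k6, k7, k8, k9, k10, k11]

theorem step {x y : Fi24.Gen} (h3 : coxLabel Fi24.edges x y = 3) (hx : γ x = γ .l)
    (hc : γ .l * γ y = γ y * γ .l) : γ y = γ .l := by
  have h1 := braid h3
  rw [hx] at h1
  have h2 : γ .l * γ y * γ .l = γ y := by rw [hc, mul_assoc, sq, mul_one]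
  have h4 : γ y * γ .l * γ y = γ .l := by rw [← hc, mul_assoc, sq, mul_one]
  rw [h2, h4] at h1
  exact h1

theorem all_eq (ha : γ .a = γ .l) (hk : γ .k = γ .l) : ∀ g, γ g = γ .l := by
  have k3 : γ .b = γ .l := step (x := .a) (by decide) ha (comm (by decide))
  have k4 : γ .c = γ .l := step (x := .b) (by decide) k3 (comm (by decide))
  have k5 : γ .d = γ .l := step (x := .c) (by decide) k4 (comm (by decide))
  have k6 : γ .e = γ .l := step (x := .d) (by decide) k5 (comm (by decide))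
  have k7 : γ .f = γ .l := step (x := .e) (by decide) k6 (comm (by decide))
  have k8 : γ .g = γ .l := step (x := .f) (by decide) k7 (comm (by decide))
  have k9 : γ .j = γ .l := step (x := .g) (by decide) k8 (comm (by decide))
  have k10 : γ .h = γ .l := step (x := .d) (by decide) k5 (comm (by decide))
  have k11 : γ .i = γ .l := step (x := .h) (by decide) k10 (comm (by decide))
  intro g
  cases g
  exacts [rfl, hk, ha, k3, k4, k5, k6, k7, k8, k9, k10, k11]

section G

variable {φ : Spor.Fi24 →* Equiv.Perm (Fin 306936)} {b0 : Fin 306936} {A B : Set (Fin 306936)}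

theorem not_all_eq (D : Data φ b0 A B) (hs : IsSimpleGroup Spor.Fi23) (hc : Nat.card Spor.Fi23 = 4089470473293004800)
    (h : ∀ g, γ g = γ .l) : False := by
  have h1 : (⊤ : Subgroup Spor.Fi24) ≤ zpowers (γ .l) := by
    rw [← closure_top, closure_le]
    rintro _ ⟨g, rfl⟩
    rw [h g]
    exact mem_zpowers _
  have h2 : Nat.card (zpowers (γ .l)) ≤ 2 := by
    rw [Nat.card_zpowers]
    exact Nat.le_of_dvd (by norm_num) (orderOf_dvd_of_pow_eq_one (by rw [pow_two, sq]))
  have h3 : zpowers (γ .l) = ⊤ := eq_top_iff.2 h1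
  rw [h3, Subgroup.card_top, card_G D hs hc] at h2
  omega

theorem ne_a (D : Data φ b0 A B) (hs : IsSimpleGroup Spor.Fi23) (hc : Nat.card Spor.Fi23 = 4089470473293004800) :
    γ .a ≠ γ .l := by
  intro ha
  have k3 : γ .b = γ .l := step (x := .a) (by decide) ha (comm (by decide))
  have hk : γ .k = γ .l := by
    refine step (x := .a) (by decide) ha ?_
    rw [← k3]
    exact comm (by decide)
  exact not_all_eq D hs hc (all_eq ha hk)

theorem ne_k (D : Data φ b0 A B) (hs : IsSimpleGroup Spor.Fi23) (hc : Nat.card Spor.Fi23 = 4089470473293004800) :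
    γ .k ≠ γ .l := by
  intro hk
  exact ne_a D hs hc (step (x := .k) (by decide) hk (comm (by decide)))

theorem H_comm {h : Spor.Fi24} (hh : h ∈ H) : h * γ .l * h⁻¹ = γ .l := by
  rw [← l_comm h hh, mul_assoc, mul_inv_cancel, mul_one]

theorem H_comm' {h : Spor.Fi24} (hh : h ∈ H) : h⁻¹ * γ .l * h = γ .l := by
  have := H_comm (inv_mem hh)
  rwa [inv_inv] at this

/-- two conjugates of `l` whose points are in one `H`-orbit are `H`-conjugate -/
theorem same_orbit (D : Data φ b0 A B) {C : Set (Fin 306936)} (hC : ∀ i ∈ C, ∀ j ∈ C, ∃ h ∈ H, φ h i = j)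
    {g g' : Spor.Fi24} (hg : φ g b0 ∈ C) (hg' : φ g' b0 ∈ C) :
    ∃ h ∈ H, h * (g * γ .l * g⁻¹) * h⁻¹ = g' * γ .l * g'⁻¹ := by
  obtain ⟨h, hh, he⟩ := hC _ hg _ hg'
  refine ⟨h, hh, ?_⟩
  have h1 : g'⁻¹ * h * g ∈ H := by
    apply (stab D).2
    have e1 : (φ g')⁻¹ (φ g' b0) = b0 := (φ g').symm_apply_apply b0
    rw [map_mul, map_mul, map_inv, Equiv.Perm.mul_apply, Equiv.Perm.mul_apply, he, e1]
  have h2 := H_comm h1
  have h3 : h * (g * γ .l * g⁻¹) * h⁻¹ = g' * ((g'⁻¹ * h * g) * γ .l * (g'⁻¹ * h * g)⁻¹) * g'⁻¹ := by group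
  rw [h3, h2]

/-- trichotomy -/
theorem tri (D : Data φ b0 A B) (hs : IsSimpleGroup Spor.Fi23) (hc : Nat.card Spor.Fi23 = 4089470473293004800) (g : Spor.Fi24) :
    g ∈ H ∨ (∃ h ∈ H, h * γ .k * h⁻¹ = g * γ .l * g⁻¹) ∨ (∃ h ∈ H, h * γ .a * h⁻¹ = g * γ .l * g⁻¹) := by
  obtain ⟨gk, hgk⟩ := isConj_iff.1 (isConj_l .k)
  obtain ⟨ga, hga⟩ := isConj_iff.1 (isConj_l .a)
  have nk : φ gk b0 ≠ b0 := by
    intro h
    have h1 := H_comm ((stab D).2 gk h)
    rw [hgk] at h1
    exact ne_k D hs hc h1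
  have na : φ ga b0 ≠ b0 := by
    intro h
    have h1 := H_comm ((stab D).2 ga h)
    rw [hga] at h1
    exact ne_a D hs hc h1
  have hno : ∀ C : Set (Fin 306936), (∀ i ∈ C, ∀ j ∈ C, ∃ h ∈ H, φ h i = j) → φ gk b0 ∈ C → φ ga b0 ∈ C → False := by
    intro C hC h1 h2
    obtain ⟨h, hh, he⟩ := same_orbit D hC h1 h2
    rw [hgk, hga] at he
    have e1 : γ .l * γ .a = h * (γ .l * γ .k) * h⁻¹ := by
      have := H_comm hh
      calc γ .l * γ .a = (h * γ .l * h⁻¹) * (h * γ .k * h⁻¹) := by rw [this, he]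
        _ = _ := by group
    have e2 : (γ .l * γ .a) ^ 2 = 1 := rel .l .a
    have e3 : (γ .l * γ .k) ^ 3 = 1 := rel .l .k
    rw [e1, conj_pow, mul_inv_eq_one, mul_eq_left] at e2
    have e4 : γ .l * γ .k = 1 := by
      rw [pow_succ, e2, one_mul] at e3; exact e3
    have e5 : γ .k = (γ .l)⁻¹ := (eq_inv_of_mul_eq_one_right e4)
    rw [inv] at e5
    exact ne_k D hs hc e5
  by_cases h0 : φ g b0 = b0
  · exact Or.inl ((stab D).2 g h0)
  right
  have hfin : ∀ C C' : Set (Fin 306936), (∀ i ∈ C, ∀ j ∈ C, ∃ h ∈ H, φ h i = j) → (∀ i ∈ C', ∀ j ∈ C', ∃ h ∈ H, φ h i = j) →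
      (∀ i, i ≠ b0 → i ∈ C ∨ i ∈ C') → φ gk b0 ∈ C →
      ((∃ h ∈ H, h * γ .k * h⁻¹ = g * γ .l * g⁻¹) ∨ (∃ h ∈ H, h * γ .a * h⁻¹ = g * γ .l * g⁻¹)) := by
    intro C C' hC hC' hcov hk
    have ha : φ ga b0 ∈ C' := by
      rcases hcov _ na with h | h
      · exact absurd h (fun h => hno C hC hk h)
      · exact h
    rcases hcov _ h0 with h | h
    · left
      obtain ⟨h', hh', he⟩ := same_orbit D hC hk h
      rw [hgk] at he
      exact ⟨h', hh', he⟩
    · right
      obtain ⟨h', hh', he⟩ := same_orbit D hC' ha h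
      rw [hga] at he
      exact ⟨h', hh', he⟩
  rcases D.hAB _ nk with h | h
  · exact hfin A B D.hA D.hB D.hAB h
  · exact hfin B A D.hB D.hA (fun i hi => (D.hAB i hi).symm) h

theorem cent_eq (D : Data φ b0 A B) (hs : IsSimpleGroup Spor.Fi23) (hc : Nat.card Spor.Fi23 = 4089470473293004800) :
    centralizer ({γ .l} : Set Spor.Fi24) = H := by
  apply le_antisymm
  · intro c hcc
    rw [mem_centralizer_singleton_iff] at hcc
    have e : c * γ .l * c⁻¹ = γ .l := by rw [hcc, mul_assoc, mul_inv_cancel, mul_one]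
    rcases tri D hs hc c with h | ⟨h, hh, he⟩ | ⟨h, hh, he⟩
    · exact h
    · exfalso
      rw [e] at he
      apply ne_k D hs hc
      calc γ .k = h⁻¹ * (h * γ .k * h⁻¹) * h := by group
        _ = h⁻¹ * γ .l * h := by rw [he]
        _ = γ .l := H_comm' hh
    · exfalso
      rw [e] at he
      apply ne_a D hs hc
      calc γ .a = h⁻¹ * (h * γ .a * h⁻¹) * h := by group
        _ = h⁻¹ * γ .l * h := by rw [he]
        _ = γ .l := H_comm' hh
  · intro h hh
    rw [mem_centralizer_singleton_iff]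
    exact (l_comm h hh).symm

theorem tt (D : Data φ b0 A B) (hs : IsSimpleGroup Spor.Fi23) (hc : Nat.card Spor.Fi23 = 4089470473293004800) :
    IsThreeTranspositionClass (conjugatesOf (γ .l)) := by
  refine ⟨⟨?_, ?_⟩, ⟨γ .l, mem_conjugatesOf_self, rfl⟩, ?_⟩
  · rintro d hd
    obtain ⟨g, rfl⟩ := isConj_iff.1 (mem_cjof.1 hd)
    have h1 : orderOf (γ .l) = 2 := by
      apply orderOf_eq_prime
      · rw [pow_two, sq]
      · intro h
        have h2 := congrArg ε h
        rw [ε_γ, map_one] at h2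
        exact absurd h2 (by decide)
    have h3 : g * γ .l * g⁻¹ = MulAut.conj g (γ .l) := rfl
    rw [h3, MulEquiv.orderOf_eq, h1]
  · rintro d hd e he
    obtain ⟨g, rfl⟩ := isConj_iff.1 (mem_cjof.1 hd)
    obtain ⟨g', rfl⟩ := isConj_iff.1 (mem_cjof.1 he)
    have key : ∀ y : Spor.Fi24, (γ .l * (y * γ .l * y⁻¹)) ^ 2 = 1 ∨ (γ .l * (y * γ .l * y⁻¹)) ^ 3 = 1 := by
      intro y
      rcases tri D hs hc y with h | ⟨h, hh, he⟩ | ⟨h, hh, he⟩
      · left
        rw [H_comm h, sq, one_pow]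
      · right
        have e1 : γ .l * (y * γ .l * y⁻¹) = h * (γ .l * γ .k) * h⁻¹ := by
          have := H_comm hh
          calc γ .l * (y * γ .l * y⁻¹) = (h * γ .l * h⁻¹) * (h * γ .k * h⁻¹) := by rw [this, he]
            _ = _ := by group
        have e2 : (γ .l * γ .k) ^ 3 = 1 := rel .l .k
        rw [e1, conj_pow, e2, mul_one, mul_inv_cancel]
      · left
        have e1 : γ .l * (y * γ .l * y⁻¹) = h * (γ .l * γ .a) * h⁻¹ := by
          have := H_comm hh
          calc γ .l * (y * γ .l * y⁻¹) = (h * γ .l * h⁻¹) * (h * γ .a * h⁻¹) := by rw [this, he]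
            _ = _ := by group
        have e2 : (γ .l * γ .a) ^ 2 = 1 := rel .l .a
        rw [e1, conj_pow, e2, mul_one, mul_inv_cancel]
    have e3 : (g * γ .l * g⁻¹) * (g' * γ .l * g'⁻¹) =
        g * (γ .l * ((g⁻¹ * g') * γ .l * (g⁻¹ * g')⁻¹)) * g⁻¹ := by group
    rw [e3, conj_pow, conj_pow]
    rcases key (g⁻¹ * g') with h | h
    · left; rw [h, mul_one, mul_inv_cancel]
    · right; rw [h, mul_one, mul_inv_cancel]
  · rw [eq_top_iff, ← closure_top, closure_le]
    rintro _ ⟨g, rfl⟩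
    exact subset_closure (mem_cjof.2 (isConj_l g))

theorem card_D (D : Data φ b0 A B) (hs : IsSimpleGroup Spor.Fi23) (hc : Nat.card Spor.Fi23 = 4089470473293004800) :
    Nat.card (conjugatesOf (γ .l) : Set Spor.Fi24) = 306936 := by
  letI : MulAction (ConjAct Spor.Fi24) Spor.Fi24 := inferInstance
  have h1 : (conjugatesOf (γ .l) : Set Spor.Fi24) = MulAction.orbit (ConjAct Spor.Fi24) (γ .l) := by
    ext x
    rw [mem_cjof, ConjAct.mem_orbit_conjAct]
    exact isConj_comm
  have h2 : (MulAction.stabilizer (ConjAct Spor.Fi24) (γ .l)).index = 306936 := by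
    rw [← (stab D).1, ← cent_eq D hs hc]
    have : MulAction.stabilizer (ConjAct Spor.Fi24) (γ .l) =
        (centralizer ({γ .l} : Set Spor.Fi24)).comap (ConjAct.ofConjAct (G := Spor.Fi24)).toMonoidHom := by
      ext x
      rw [MulAction.mem_stabilizer_iff, mem_comap, mem_centralizer_singleton_iff, ConjAct.smul_def, mul_inv_eq_iff_eq_mul]
      exact Iff.rfl
    rw [this]
    exact index_comap_of_surjective _ (ConjAct.ofConjAct (G := Spor.Fi24)).surjective
  rw [h1, ← h2, MulAction.index_stabilizer]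
  rfl

theorem fi23_of (hs : IsSimpleGroup Spor.Fi23) (hc : Nat.card Spor.Fi23 = 4089470473293004800) {X : Type*} [Group X]
    (f : Spor.Fi23 →* X) (hf : Function.Injective f) : IsFi23 f.range := by
  have e : Spor.Fi23 ≃* f.range := MonoidHom.ofInjective hf
  haveI := hs
  haveI : Nontrivial f.range := e.toEquiv.symm.nontrivial
  refine ⟨IsSimpleGroup.isSimpleGroup_of_surjective e.toMonoidHom e.surjective, ?_⟩
  rw [← hc]
  exact (Nat.card_congr e.toEquiv).symm

theorem s0473 (D : Data φ b0 A B) (hs : IsSimpleGroup Spor.Fi23) (hc : Nat.card Spor.Fi23 = 4089470473293004800)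
    (hHe : ∃ K : Subgroup (commutator Spor.Fi24), IsHe K) :
    ∃ (G : Type) (_ : Group G) (_ : Finite G), Nat.card G = 2 * 1255205709190661721292800 ∧ ∃ D : Set G, Cfsg.IsThreeTranspositionClass D ∧ Nat.card D = 306936 ∧ (∀ d ∈ D, Nat.card (Subgroup.centralizer ({d} : Set G)) = 2 * 4089470473293004800 ∧ ∃ K : Subgroup G, K ≤ Subgroup.centralizer ({d} : Set G) ∧ Cfsg.IsFi23 K) ∧ ∃ H : Subgroup G, H.index = 2 ∧ Cfsg.IsFi24' H ∧ (∃ K : Subgroup H, Cfsg.IsFi23 K) ∧ (∃ K : Subgroup H, Cfsg.IsHe K) := by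
  have hcG := card_G D hs hc
  haveI : Finite Spor.Fi24 := Nat.finite_of_card_ne_zero (by rw [hcG]; norm_num)
  obtain ⟨θ, hθ⟩ := exists_theta D.spider
  have hinj : Function.Injective θ := Function.Injective.of_comp (inj D hs hθ)
  refine ⟨Spor.Fi24, inferInstance, inferInstance, ?_, conjugatesOf (γ .l), tt D hs hc, card_D D hs hc, ?_,
    commutator Spor.Fi24, ?_, main D hs hc, ?_, hHe⟩
  · rw [hcG]
  · intro d hd
    obtain ⟨g, rfl⟩ := isConj_iff.1 (mem_cjof.1 hd)
    have hcc : centralizer ({g * γ .l * g⁻¹} : Set Spor.Fi24) = H.map (MulAut.conj g).toMonoidHom := by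
      rw [← cent_eq D hs hc]
      ext x
      rw [mem_centralizer_singleton_iff, mem_map]
      constructor
      · intro hx
        refine ⟨g⁻¹ * x * g, ?_, ?_⟩
        · rw [mem_centralizer_singleton_iff]
          calc g⁻¹ * x * g * γ .l = g⁻¹ * (x * (g * γ .l * g⁻¹)) * g := by group
            _ = g⁻¹ * ((g * γ .l * g⁻¹) * x) * g := by rw [hx]
            _ = _ := by group
        · show g * (g⁻¹ * x * g) * g⁻¹ = x
          group
      · rintro ⟨y, hy, rfl⟩
        rw [mem_centralizer_singleton_iff] at hy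
        show g * y * g⁻¹ * (g * γ .l * g⁻¹) = g * γ .l * g⁻¹ * (g * y * g⁻¹)
        calc g * y * g⁻¹ * (g * γ .l * g⁻¹) = g * (y * γ .l) * g⁻¹ := by group
          _ = g * (γ .l * y) * g⁻¹ := by rw [hy]
          _ = _ := by group
    refine ⟨?_, ((MulAut.conj g).toMonoidHom.comp θ).range, ?_, ?_⟩
    · rw [hcc, Subgroup.card_map_of_injective (MulAut.conj g).injective, card_H D hs hc]
    · rw [hcc]
      rintro _ ⟨y, rfl⟩
      exact ⟨θ y, (theta_mem hθ y).1, rfl⟩
    · exact fi23_of hs hc _ ((MulAut.conj g).injective.comp hinj)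
  · rw [← ker_eps, Subgroup.index_ker, eps_range, Subgroup.card_top, card_units]
  · have hm : ∀ y, θ y ∈ commutator Spor.Fi24 := by
      intro y
      rw [← ker_eps]
      exact (theta_mem hθ y).2
    refine ⟨(θ.codRestrict (commutator Spor.Fi24) hm).range, fi23_of hs hc _ ?_⟩
    intro y z hyz
    exact hinj (congrArg Subtype.val hyz)

end G

end Cfsg.Agent.H12.Fi24A
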