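import Cfsg.Agent.H1_Coprime2
import Cfsg.Agent.H22_Basic

set_option autoImplicit false
set_option linter.all false

/-!
Products of orders of fixed point subgroups in coprime action of a `p`-group.
-/

namespace Cfsg.Agent.H12.NP

open Subgroup
open scoped commutatorElement
open Cfsg.Agent

universe u v

section abs
variable {V : Type u} [CommGroup V]

/-- fixed points -/
def Fx (γ : MulAut V) : Subgroup V where
  carrier := {v | γ v = v}
  one_mem' := map_one γ
  mul_mem' := fun {a b} ha hb => by
    show γ (a * b) = a * b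
    rw [map_mul, show γ a = a from ha, show γ b = b from hb]
  inv_mem' := fun {a} ha => by
    show γ a⁻¹ = a⁻¹
    rw [map_inv, show γ a = a from ha]

theorem mem_Fx {γ : MulAut V} {v : V} : v ∈ Fx γ ↔ γ v = v := Iff.rfl

/-- `v ↦ γ v / v` -/
def dh (γ : MulAut V) : V →* V where
  toFun v := γ v / v
  map_one' := by rw [map_one, div_one]
  map_mul' a b := by rw [map_mul, mul_div_mul_comm]

theorem dh_apply (γ : MulAut V) (v : V) : dh γ v = γ v / v := rfl

theorem ker_dh (γ : MulAut V) : (dh γ).ker = Fx γ := by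
  ext v
  rw [MonoidHom.mem_ker, dh_apply, div_eq_one, mem_Fx]

theorem card_ker_map [Finite V] (d : V →* V) (H : Subgroup V) :
    Nat.card H = Nat.card (d.ker ⊓ H : Subgroup V) * Nat.card (H.map d) := by
  rw [← H22.Basic.card_mul_relIndex (inf_le_right : d.ker ⊓ H ≤ H), inf_relIndex_right, relIndex_ker]

theorem pow_fix {β : MulAut V} {w : V} (h : β w = w) (k : ℕ) : (β ^ k) w = w := by
  induction k with
  | zero => rfl
  | succ k ih => rw [pow_succ, MulAut.mul_apply, h, ih]

/-- `ker d ∩ im d = 1` -/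
theorem ker_inf_range {p : ℕ} [Finite V] {β : MulAut V} (hβ : β ^ p = 1) (hcop : p.Coprime (Nat.card V))
    {w : V} (h1 : β w = w) (u : V) (h2 : β u / u = w) : w = 1 := by
  have h3 : ∀ k : ℕ, (β ^ k) u = w ^ k * u := by
    intro k
    induction k with
    | zero => simp
    | succ k ih =>
      have h4 : β u = w * u := by rw [← h2, div_mul_cancel]
      rw [pow_succ, MulAut.mul_apply, h4, map_mul, pow_fix h1, ih, pow_succ]
      rw [← mul_assoc, mul_comm w (w ^ k)]
  have h5 := h3 p
  rw [hβ, MulAut.one_apply] at h5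
  have h6 : w ^ p = 1 := by
    have : w ^ p * u = 1 * u := by rw [one_mul]; exact h5.symm
    exact mul_right_cancel this
  have h7 : w ^ Nat.card V = 1 := pow_card_eq_one'
  have h8 : orderOf w ∣ p.gcd (Nat.card V) :=
    Nat.dvd_gcd (orderOf_dvd_of_pow_eq_one h6) (orderOf_dvd_of_pow_eq_one h7)
  rw [hcop, Nat.dvd_one, orderOf_eq_one_iff] at h8
  exact h8

theorem fix_of_pow_fix {p : ℕ} [hp : Fact p.Prime] {β : MulAut V} (hβ : β ^ p = 1) {m : ℕ} (hm : ¬ p ∣ m) {w : V}
    (h : (β ^ m) w = w) : β w = w := by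
  have hg : m.gcd p = 1 := by
    rw [Nat.gcd_comm]; exact (Nat.Prime.coprime_iff_not_dvd hp.out).2 hm
  -- w is fixed by the subgroup generated by β ^ m
  have h1 : β ∈ zpowers (β ^ m) := by
    have h2 : zpowers (β ^ m) = zpowers β := by
      apply le_antisymm (zpowers_le.2 (pow_mem (mem_zpowers _) _))
      rw [zpowers_le]
      have e := Nat.gcd_eq_gcd_ab m p
      rw [hg] at e
      refine mem_zpowers_iff.2 ⟨m.gcdA p, ?_⟩
      rw [← zpow_natCast, ← zpow_mul]
      have e2 : (m : ℤ) * m.gcdA p = 1 - p * m.gcdB p := by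
        push_cast at e; linarith
      rw [e2, zpow_sub, zpow_one, zpow_mul, zpow_natCast, hβ, one_zpow, inv_one, mul_one]
    rw [h2]; exact mem_zpowers _
  obtain ⟨k, hk⟩ := mem_zpowers_iff.1 h1
  have h3 : ∀ k : ℤ, ((β ^ m) ^ k) w = w := by
    intro k
    have h4 : (β ^ m) ∈ MulAction.stabilizer (MulAut V) w := h
    exact (MulAction.stabilizer (MulAut V) w).zpow_mem h4 k
  rw [← hk]; exact h3 k

theorem lemC [Finite V] {p : ℕ} [hp : Fact p.Prime] {α β : MulAut V} (hc : Commute α β) (hβ : β ^ p = 1)
    (hcop : p.Coprime (Nat.card V)) :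
    (∏ j ∈ Finset.range p, Nat.card (Fx (α * β ^ j))) * Nat.card (Fx β) ≤
      Nat.card V * Nat.card (Fx β ⊓ Fx α : Subgroup V) ^ p := by
  classical
  set d := dh β with hd
  set L : ℕ → Subgroup V := fun j => (Fx (α * β ^ j)).map d with hL
  have hcomm : ∀ v, α (β v) = β (α v) := fun v => by
    rw [← MulAut.mul_apply, hc.eq, MulAut.mul_apply]
  have hcj : ∀ (j : ℕ), Commute (α * β ^ j) β := fun j => (hc.mul_left ((Commute.refl β).pow_left j))
  have hcja : ∀ (j : ℕ), Commute (α * β ^ j) α := fun j => ((Commute.refl α).mul_left (hc.symm.pow_left j))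
  -- L j is contained in K j
  have hLK : ∀ j, L j ≤ Fx (α * β ^ j) := by
    rintro j _ ⟨v, hv, rfl⟩
    have hv' : (α * β ^ j) v = v := hv
    show (α * β ^ j) (β v / v) = β v / v
    rw [map_div, hv', ← MulAut.mul_apply, (hcj j).eq, MulAut.mul_apply, hv']
  have hLg : ∀ (γ : MulAut V), Commute γ β → (∀ j, Commute (α * β ^ j) γ) → ∀ j, ∀ w ∈ L j, γ w ∈ L j := by
    rintro γ hγ hγ2 j _ ⟨v, hv, rfl⟩
    refine ⟨γ v, ?_, ?_⟩
    · show (α * β ^ j) (γ v) = γ v
      rw [← MulAut.mul_apply, (hγ2 j).eq, MulAut.mul_apply, show (α * β ^ j) v = v from hv]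
    · show β (γ v) / γ v = γ (β v / v)
      rw [map_div, ← MulAut.mul_apply, ← hγ.eq, MulAut.mul_apply]
  have hLrange : ∀ j, L j ≤ d.range := fun j => map_le_range _ _
  have hzero : ∀ w ∈ d.range, β w = w → w = 1 := by
    rintro w ⟨u, hu⟩ h
    exact ker_inf_range hβ hcop h u hu
  -- independence
  have hind : ∀ s : Finset ℕ, (∀ j ∈ s, j < p) → ∀ v : ℕ → V, (∀ j ∈ s, v j ∈ L j) → ∏ j ∈ s, v j = 1 →
      ∀ j ∈ s, v j = 1 := by
    intro s
    induction s using Finset.induction_on with
    | empty => intro _ v _ _ j hj; exact absurd hj (Finset.notMem_empty j)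
    | insert i s hi ih =>
      intro hs v hv hprod
      rw [Finset.prod_insert hi] at hprod
      have hvi : (α * β ^ i) (v i) = v i := hLK i (hv i (Finset.mem_insert_self i s))
      -- apply T_i
      have h1 : ∏ j ∈ s, dh (α * β ^ i) (v j) = 1 := by
        rw [← map_prod]
        have h2 : dh (α * β ^ i) (v i * ∏ j ∈ s, v j) = 1 := by rw [hprod, map_one]
        rw [map_mul, dh_apply, hvi, div_self', one_mul] at h2
        exact h2
      have h3 := ih (fun j hj => hs j (Finset.mem_insert_of_mem hj)) (fun j => dh (α * β ^ i) (v j)) (by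
        intro j hj
        have hvj := hv j (Finset.mem_insert_of_mem hj)
        exact div_mem (hLg (α * β ^ i) (hcj i) (fun k => by
          exact (((Commute.refl α).mul_right (hc.pow_right i)).mul_left
            ((hc.symm.pow_left k).mul_right ((Commute.refl β).pow_pow k i)))) j _ hvj) hvj) h1
      have h4 : ∀ j ∈ s, v j = 1 := by
        intro j hj
        have h5 : (α * β ^ i) (v j) = v j := div_eq_one.1 (h3 j hj)
        have hvj := hv j (Finset.mem_insert_of_mem hj)
        have h6 : (α * β ^ j) (v j) = v j := hLK j hvj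
        have hjp := hs j (Finset.mem_insert_of_mem hj)
        have hip := hs i (Finset.mem_insert_self i s)
        have hij : i ≠ j := fun h => hi (h ▸ hj)
        -- β ^ i (v j) = β ^ j (v j)
        have h7 : (β ^ i) (v j) = (β ^ j) (v j) := by
          apply α.injective
          rw [← MulAut.mul_apply, ← MulAut.mul_apply, h5, h6]
        apply hzero _ (hLrange j hvj)
        rcases lt_or_gt_of_ne hij with h | h
        · apply fix_of_pow_fix hβ (m := j - i) (fun hd => by
            have := Nat.le_of_dvd (by omega) hd; omega)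
          apply (β ^ i).injective
          rw [← MulAut.mul_apply, ← pow_add, Nat.add_sub_cancel' h.le, h7]
        · apply fix_of_pow_fix hβ (m := i - j) (fun hd => by
            have := Nat.le_of_dvd (by omega) hd; omega)
          apply (β ^ j).injective
          rw [← MulAut.mul_apply, ← pow_add, Nat.add_sub_cancel' h.le, h7]
      intro j hj
      rcases Finset.mem_insert.1 hj with rfl | h
      · rw [Finset.prod_eq_one h4, mul_one] at hprod
        exact hprod
      · exact h4 j h
  -- cardinalities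
  have hprodL : ∏ j ∈ Finset.range p, Nat.card (L j) ≤ Nat.card d.range := by
    rw [Finset.prod_range, ← Nat.card_pi]
    apply Nat.card_le_card_of_injective
      (fun v : (∀ j : Fin p, L j) => (⟨∏ j : Fin p, (v j : V), prod_mem (fun j _ => hLrange _ (v j).2)⟩ : d.range))
    intro v w hvw
    have h1 : ∏ j : Fin p, (v j : V) = ∏ j : Fin p, (w j : V) := congrArg Subtype.val hvw
    have h2 : ∏ j ∈ Finset.range p, (fun j => if h : j < p then ((v ⟨j, h⟩ : V) / (w ⟨j, h⟩ : V)) else 1) j = 1 := by
      rw [Finset.prod_range]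
      have : ∀ j : Fin p, (fun j => if h : j < p then ((v ⟨j, h⟩ : V) / (w ⟨j, h⟩ : V)) else 1) (j : ℕ) = (v j : V) / (w j : V) := by
        intro j
        simp only [j.2, dif_pos, Fin.eta]
      rw [Finset.prod_congr rfl (fun j _ => this j), Finset.prod_div_distrib, h1, div_self']
    have h3 := hind (Finset.range p) (fun j hj => Finset.mem_range.1 hj) _ (by
      intro j hj
      have hj' := Finset.mem_range.1 hj
      simp only [hj', dif_pos]
      exact div_mem (v ⟨j, hj'⟩).2 (w ⟨j, hj'⟩).2) h2
    funext j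
    have h4 := h3 j (Finset.mem_range.2 j.2)
    simp only [j.2, dif_pos, Fin.eta] at h4
    exact Subtype.ext (div_eq_one.1 h4)
  have hKj : ∀ j, Nat.card (Fx (α * β ^ j)) = Nat.card (Fx β ⊓ Fx α : Subgroup V) * Nat.card (L j) := by
    intro j
    rw [card_ker_map d (Fx (α * β ^ j)), hd, ker_dh]
    congr 2
    have : Fx β ⊓ Fx (α * β ^ j) = Fx β ⊓ Fx α := by
      ext v
      constructor
      · rintro ⟨h1, h2⟩
        refine ⟨h1, ?_⟩
        have h3 : (α * β ^ j) v = v := h2
        rw [MulAut.mul_apply, pow_fix h1] at h3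
        exact h3
      · rintro ⟨h1, h2⟩
        refine ⟨h1, ?_⟩
        show (α * β ^ j) v = v
        rw [MulAut.mul_apply, pow_fix h1]
        exact h2
    rw [this]
  have hV : Nat.card V = Nat.card (Fx β) * Nat.card d.range := by
    have := card_ker_map d ⊤
    rw [hd, ker_dh, inf_top_eq, ← MonoidHom.range_eq_map, Subgroup.card_top] at this
    exact this
  rw [Finset.prod_congr rfl (fun j _ => hKj j), Finset.prod_mul_distrib, Finset.prod_const, Finset.card_range]
  calc Nat.card (Fx β ⊓ Fx α : Subgroup V) ^ p * (∏ j ∈ Finset.range p, Nat.card (L j)) * Nat.card (Fx β)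
      ≤ Nat.card (Fx β ⊓ Fx α : Subgroup V) ^ p * Nat.card d.range * Nat.card (Fx β) := by gcongr
    _ = Nat.card V * Nat.card (Fx β ⊓ Fx α : Subgroup V) ^ p := by rw [hV]; ring

end abs

end Cfsg.Agent.H12.NP
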