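import Cfsg.Agent.H12_NP1

set_option autoImplicit false
set_option linter.all false

/-!
Products of orders of fixed point subgroups in coprime action of a `p`-group: internal form.
-/

namespace Cfsg.Agent.H12.NP

open Subgroup
open scoped commutatorElement
open Cfsg.Agent

universe u v

/-- the order of the fixed points of `A` on `N` -/
noncomputable def FF {G : Type u} [Group G] (N A : Subgroup G) : ℕ :=
  Nat.card (N ⊓ centralizer (A : Set G) : Subgroup G)

section
variable {G : Type u} [Group G]

theorem mem_centralizer_zpowers {g v : G} : v ∈ centralizer ((zpowers g : Subgroup G) : Set G) ↔ g * v * g⁻¹ = v := by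
  constructor
  · intro h
    have := mem_centralizer_iff.1 h g (mem_zpowers g)
    rw [this, mul_inv_cancel_right]
  · intro h
    have h1 : g ∈ centralizer ({v} : Set G) := by
      rw [mem_centralizer_singleton_iff]
      rw [mul_inv_eq_iff_eq_mul] at h
      exact h
    rw [mem_centralizer_iff]
    intro x hx
    have h2 : x ∈ centralizer ({v} : Set G) := (zpowers_le.2 h1) hx
    exact (mem_centralizer_singleton_iff.1 h2)

/-- conjugation action -/
noncomputable abbrev nh (V : Subgroup G) : (normalizer (V : Set G) : Subgroup G) →* MulAut V := V.normalizerMonoidHom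

theorem nh_apply (V : Subgroup G) (g : (normalizer (V : Set G) : Subgroup G)) (v : V) :
    ((nh V g v : V) : G) = g.1 * v * g.1⁻¹ := rfl

end

section
variable {G : Type u} [Group G] [Finite G] {p : ℕ} [hp : Fact p.Prime]

theorem lemC_int {V : Subgroup G} (hVc : ∀ x ∈ V, ∀ y ∈ V, x * y = y * x)
    (x z : (normalizer (V : Set G) : Subgroup G)) (hc : Commute (nh V x) (nh V z)) (hzp : (nh V z) ^ p = 1)
    (hcop : p.Coprime (Nat.card V)) :
    (∏ j ∈ Finset.range p, FF V (zpowers (x.1 * z.1 ^ j))) * FF V (zpowers z.1) ≤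
      Nat.card V * FF (V ⊓ centralizer ((zpowers z.1 : Subgroup G) : Set G)) (zpowers x.1) ^ p := by
  letI cg : CommGroup V := { (inferInstance : Group V) with mul_comm := fun a b => Subtype.ext (hVc a a.2 b b.2) }
  have key : ∀ g : (normalizer (V : Set G) : Subgroup G),
      (Fx (nh V g)).map V.subtype = V ⊓ centralizer ((zpowers g.1 : Subgroup G) : Set G) := by
    intro g
    ext v
    constructor
    · rintro ⟨w, hw, rfl⟩
      refine ⟨w.2, mem_centralizer_zpowers.2 ?_⟩
      exact congrArg Subtype.val (show nh V g w = w from hw)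
    · rintro ⟨h1, h2⟩
      refine ⟨⟨v, h1⟩, ?_, rfl⟩
      exact Subtype.ext (mem_centralizer_zpowers.1 h2)
  have key2 : ∀ g : (normalizer (V : Set G) : Subgroup G), Nat.card (Fx (nh V g)) = FF V (zpowers g.1) := by
    intro g
    rw [FF, ← key g, card_map_of_injective V.subtype_injective]
  have key3 : Nat.card (Fx (nh V z) ⊓ Fx (nh V x) : Subgroup V) =
      FF (V ⊓ centralizer ((zpowers z.1 : Subgroup G) : Set G)) (zpowers x.1) := by
    rw [← card_map_of_injective V.subtype_injective, FF]
    have : (Fx (nh V z) ⊓ Fx (nh V x) : Subgroup V).map V.subtype =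
        V ⊓ centralizer ((zpowers z.1 : Subgroup G) : Set G) ⊓ centralizer ((zpowers x.1 : Subgroup G) : Set G) := by
      rw [Subgroup.map_inf _ _ _ V.subtype_injective, key, key]
      ext v
      simp only [mem_inf]
      tauto
    rw [this]
  have h := lemC (V := V) hc hzp hcop
  rw [key3, key2] at h
  have e : ∀ j, Nat.card (Fx (nh V x * nh V z ^ j)) = FF V (zpowers (x.1 * z.1 ^ j)) := by
    intro j
    rw [← map_pow, ← map_mul, key2]
    rfl
  rw [Finset.prod_congr rfl (fun j _ => e j)] at h
  exact h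

/-- the abelian case -/
theorem B_ab {P : Type v} [Group P] [Fintype P] (hP : IsPGroup p P) (φ : P →* G) (n : ℕ) :
    ∀ V : Subgroup G, Nat.card V = n → (∀ x ∈ V, ∀ y ∈ V, x * y = y * x) →
    φ.range ≤ normalizer (V : Set G) → (Nat.card P).Coprime (Nat.card V) →
    (∏ x : P, FF V (zpowers (φ x))) ^ p ≤
      Nat.card V ^ Fintype.card P * FF V φ.range ^ ((p - 1) * Fintype.card P) := by
  induction n using Nat.strong_induction_on with
  | _ n ih =>
  intro V hn hVc hN hcop
  have hNx : ∀ x, φ x ∈ normalizer (V : Set G) := fun x => hN ⟨x, rfl⟩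
  set ψ : P →* MulAut V := (nh V).comp (φ.codRestrict _ hNx) with hψ
  have hψa : ∀ x, ψ x = nh V ⟨φ x, hNx x⟩ := fun x => rfl
  by_cases htriv : ∀ x, ψ x = 1
  · -- trivial action
    have h1 : ∀ x, V ≤ centralizer ((zpowers (φ x) : Subgroup G) : Set G) := by
      intro x v hv
      rw [mem_centralizer_zpowers]
      have := htriv x
      have h2 := congrArg (fun f : MulAut V => ((f ⟨v, hv⟩ : V) : G)) this
      exact h2
    have h2 : V ≤ centralizer (φ.range : Set G) := by
      intro v hv
      rw [mem_centralizer_iff]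
      rintro _ ⟨x, rfl⟩
      exact mem_centralizer_iff.1 (h1 x hv) _ (mem_zpowers _)
    have e1 : ∀ x, FF V (zpowers (φ x)) = Nat.card V := fun x => by rw [FF, inf_eq_left.2 (h1 x)]
    have e2 : FF V φ.range = Nat.card V := by rw [FF, inf_eq_left.2 h2]
    rw [Finset.prod_congr rfl (fun x _ => e1 x), e2, Finset.prod_const, Finset.card_univ, ← pow_add, ← pow_mul]
    apply le_of_eq
    congr 1
    obtain ⟨q, hq⟩ := Nat.exists_eq_succ_of_ne_zero hp.out.ne_zero
    rw [hq, Nat.succ_sub_one]
    simp only [Nat.succ_eq_add_one]; ring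
  · push_neg at htriv
    obtain ⟨x₀, hx₀⟩ := htriv
    have hR : IsPGroup p ψ.range := hP.of_surjective ψ.rangeRestrict ψ.rangeRestrict_surjective
    have hRn : Nontrivial ψ.range := ⟨⟨ψ x₀, x₀, rfl⟩, 1, fun h => hx₀ (congrArg Subtype.val h)⟩
    have hZn := hR.center_nontrivial
    have hZp : IsPGroup p (center ψ.range) := hR.to_subgroup _
    have hdvd : p ∣ Nat.card (center ψ.range) := by
      rcases hZp.card_eq_or_dvd with h | h
      · exact absurd h Finite.one_lt_card.ne'
      · exact h
    obtain ⟨ζ, hζ⟩ := exists_prime_orderOf_dvd_card' p hdvd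
    obtain ⟨z, hz⟩ := ζ.1.2
    have hζ1 : ψ z ≠ 1 := by
      intro h
      have h1 : ζ = 1 := Subtype.ext (Subtype.ext (by rw [← hz, h]; rfl))
      rw [h1, orderOf_one] at hζ
      exact hp.out.one_lt.ne hζ
    have hζp : ψ z ^ p = 1 := by
      have h1 : ζ ^ p = 1 := by rw [← hζ]; exact pow_orderOf_eq_one ζ
      have h2 : ((ζ ^ p : center ψ.range) : ψ.range).1 = 1 := by rw [h1]; rfl
      rw [hz]; exact h2
    have hζc : ∀ x, Commute (ψ x) (ψ z) := by
      intro x
      have h1 := mem_center_iff.1 ζ.2 ⟨ψ x, x, rfl⟩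
      have h2 := congrArg Subtype.val h1
      show ψ x * ψ z = ψ z * ψ x
      rw [hz]
      exact h2
    set C : Subgroup G := V ⊓ centralizer ((zpowers (φ z) : Subgroup G) : Set G) with hC
    have hCV : C ≤ V := inf_le_left
    have hClt : C < V := by
      refine lt_of_le_of_ne hCV (fun h => hζ1 ?_)
      apply MulEquiv.ext
      intro v
      apply Subtype.ext
      have h1 : v.1 ∈ C := by rw [h]; exact v.2
      exact mem_centralizer_zpowers.1 h1.2
    have hCn : φ.range ≤ normalizer (C : Set G) := by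
      rintro _ ⟨x, rfl⟩
      apply H22.Basic.mem_normalizer_of_cj_le
      rintro _ ⟨c, hc, rfl⟩
      have hcV : c ∈ V := hCV hc
      have h1 : ψ z ⟨c, hcV⟩ = ⟨c, hcV⟩ := Subtype.ext (mem_centralizer_zpowers.1 hc.2)
      have h2 : ψ z (ψ x ⟨c, hcV⟩) = ψ x ⟨c, hcV⟩ := by
        rw [← MulAut.mul_apply, ← (hζc x).eq, MulAut.mul_apply, h1]
      refine ⟨(ψ x ⟨c, hcV⟩).2, mem_centralizer_zpowers.2 ?_⟩
      exact congrArg Subtype.val h2
    have hpV : p.Coprime (Nat.card V) := by
      have : p ∣ Nat.card P := by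
        rcases hP.card_eq_or_dvd with h | h
        · exfalso
          have := (Nat.card_eq_one_iff_unique.1 h).1
          exact hζ1 (by rw [Subsingleton.elim z 1, map_one])
        · exact h
      exact hcop.coprime_dvd_left this
    have hlemC : ∀ x : P, (∏ j ∈ Finset.range p, FF V (zpowers (φ (x * z ^ j)))) * Nat.card C ≤
        Nat.card V * FF C (zpowers (φ x)) ^ p := by
      intro x
      have h1 := lemC_int hVc ⟨φ x, hNx x⟩ ⟨φ z, hNx z⟩ (hζc x) hζp hpV
      have e : ∀ j, φ (x * z ^ j) = φ x * φ z ^ j := fun j => by rw [map_mul, map_pow]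
      rw [Finset.prod_congr rfl (fun j _ => by rw [e j])]
      exact h1
    have hih := ih (Nat.card C) (hn ▸ H22.Basic.card_lt_of_lt hClt) C rfl
      (fun x hx y hy => hVc x (hCV hx) y (hCV hy)) hCn (hcop.coprime_dvd_right (card_dvd_of_le hCV))
    have eC : FF C φ.range = FF V φ.range := by
      have : C ⊓ centralizer (φ.range : Set G) = V ⊓ centralizer (φ.range : Set G) := by
        apply le_antisymm (inf_le_inf_right _ hCV)
        rintro v ⟨h1, h2⟩
        exact ⟨⟨h1, centralizer_le (show ((zpowers (φ z) : Subgroup G)) ≤ φ.range from zpowers_le.2 (MonoidHom.mem_range.2 ⟨z, rfl⟩)) h2⟩, h2⟩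
      rw [FF, FF, this]
    rw [eC] at hih
    have hprod : (∏ x : P, ∏ j ∈ Finset.range p, FF V (zpowers (φ (x * z ^ j)))) =
        (∏ x : P, FF V (zpowers (φ x))) ^ p := by
      rw [Finset.prod_comm]
      have : ∀ j ∈ Finset.range p, ∏ x : P, FF V (zpowers (φ (x * z ^ j))) = ∏ x : P, FF V (zpowers (φ x)) := by
        intro j _
        exact Fintype.prod_equiv (Equiv.mulRight (z ^ j)) _ _ (fun x => rfl)
      rw [Finset.prod_congr rfl this, Finset.prod_const, Finset.card_range]
    have hmul : (∏ x : P, FF V (zpowers (φ x))) ^ p * Nat.card C ^ Fintype.card P ≤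
        Nat.card V ^ Fintype.card P * (∏ x : P, FF C (zpowers (φ x))) ^ p := by
      have h1 : ∏ x : P, ((∏ j ∈ Finset.range p, FF V (zpowers (φ (x * z ^ j)))) * Nat.card C) ≤
          ∏ x : P, (Nat.card V * FF C (zpowers (φ x)) ^ p) :=
        Finset.prod_le_prod' (fun x _ => hlemC x)
      rw [Finset.prod_mul_distrib, Finset.prod_mul_distrib, hprod, Finset.prod_const, Finset.prod_const,
        Finset.card_univ, Finset.prod_pow] at h1
      exact h1
    have hCpos : 0 < Nat.card C ^ Fintype.card P := pow_pos Nat.card_pos _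
    apply Nat.le_of_mul_le_mul_right _ hCpos
    calc (∏ x : P, FF V (zpowers (φ x))) ^ p * Nat.card C ^ Fintype.card P
        ≤ Nat.card V ^ Fintype.card P * (∏ x : P, FF C (zpowers (φ x))) ^ p := hmul
      _ ≤ Nat.card V ^ Fintype.card P * (Nat.card C ^ Fintype.card P * FF V φ.range ^ ((p - 1) * Fintype.card P)) :=
          Nat.mul_le_mul_left _ hih
      _ = _ := by ring

end

end Cfsg.Agent.H12.NP
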