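import Cfsg.Agent.H12_NP2
import Cfsg.Agent.H12_CFP

set_option autoImplicit false
set_option linter.all false

/-!
Products of orders of fixed point subgroups in coprime action of a `p`-group: the general case.
-/

namespace Cfsg.Agent.H12.NP

open Subgroup
open scoped commutatorElement Pointwise
open Cfsg.Agent Cfsg.Agent.H1.Basic Cfsg.Agent.H1.SZ

universe u v w

section
variable {G : Type u} [Group G] [Finite G]

theorem card_ker_map' {G' : Type v} [Group G'] (d : G →* G') (H : Subgroup G) :
    Nat.card H = Nat.card (d.ker ⊓ H : Subgroup G) * Nat.card (H.map d) := by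
  rw [← H22.Basic.card_mul_relIndex (inf_le_right : d.ker ⊓ H ≤ H), inf_relIndex_right, relIndex_ker]

/-- multiplicativity of the number of fixed points -/
theorem FF_quot {Z N A : Subgroup G} (hZ : Z.Normal) (hZN : Z ≤ N) (hA : A ≤ normalizer (N : Set G))
    (hcop : (Nat.card A).Coprime (Nat.card N)) (hs : Group.IsSolvable A) :
    FF N A = FF Z A * FF (N.map (QuotientGroup.mk' Z)) (A.map (QuotientGroup.mk' Z)) := by
  rw [FF, card_ker_map' (QuotientGroup.mk' Z), QuotientGroup.ker_mk', FF, FF]
  have h1 : Z ⊓ (N ⊓ centralizer (A : Set G)) = Z ⊓ centralizer (A : Set G) := by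
    rw [← inf_assoc, inf_eq_left.2 hZN]
  have h2 : (N ⊓ centralizer (A : Set G)).map (QuotientGroup.mk' Z) =
      N.map (QuotientGroup.mk' Z) ⊓ centralizer ((A.map (QuotientGroup.mk' Z) : Subgroup (G ⧸ Z)) : Set (G ⧸ Z)) := by
    apply le_antisymm
    · rintro _ ⟨x, ⟨hx1, hx2⟩, rfl⟩
      refine ⟨mem_map_of_mem _ hx1, mem_centralizer_iff.2 ?_⟩
      rintro _ ⟨a, ha, rfl⟩
      rw [← map_mul, ← map_mul, mem_centralizer_iff.1 hx2 a ha]
    · rintro _ ⟨⟨x, hx, rfl⟩, hc⟩
      obtain ⟨c, hc1, hc2⟩ := H12.CFP.lift_fixed hZ hA le_rfl hcop hs hx (by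
        intro b hb
        have h4 := mem_centralizer_iff.1 hc _ (mem_map_of_mem (QuotientGroup.mk' Z) hb)
        have h5 : QuotientGroup.mk' Z x = QuotientGroup.mk' Z (b * x * b⁻¹) := by
          rw [map_mul, map_mul, map_inv, h4, mul_inv_cancel_right]
        exact QuotientGroup.eq.1 h5)
      exact mem_map.2 ⟨c, hc1, (QuotientGroup.eq.2 hc2).symm⟩
  rw [h1, h2]

/-- passage to a subgroup -/
theorem FF_sub {N H : Subgroup G} (hN : N ≤ H) (A' : Subgroup H) :
    FF (N.subgroupOf H) A' = FF N (A'.map H.subtype) := by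
  rw [FF, FF, ← card_map_of_injective H.subtype_injective]
  congr 2
  have : (N.subgroupOf H ⊓ centralizer (A' : Set H)).map H.subtype =
      N ⊓ centralizer ((A'.map H.subtype : Subgroup G) : Set G) := by
    ext v
    constructor
    · rintro ⟨w, ⟨hw1, hw2⟩, rfl⟩
      refine ⟨hw1, mem_centralizer_iff.2 ?_⟩
      rintro _ ⟨a, ha, rfl⟩
      exact congrArg Subtype.val (mem_centralizer_iff.1 hw2 a ha)
    · rintro ⟨h1, h2⟩
      refine ⟨⟨v, hN h1⟩, ⟨h1, mem_centralizer_iff.2 ?_⟩, rfl⟩
      intro a ha
      exact Subtype.ext (mem_centralizer_iff.1 h2 _ (mem_map_of_mem _ ha))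
  rw [this]

/-- Sylow subgroups of the fixed points -/
theorem FF_sylow {r : ℕ} [hr : Fact r.Prime] {N A : Subgroup G} (hA : A ≤ normalizer (N : Set G))
    (hcop : (Nat.card A).Coprime (Nat.card N)) (hs : Group.IsSolvable A) (P : Sylow r N)
    (hP : A ≤ normalizer ((P : Subgroup N).map N.subtype : Set G)) :
    FF ((P : Subgroup N).map N.subtype) A = r ^ (FF N A).factorization r := by
  set R := (P : Subgroup N).map N.subtype with hR
  have hRN : R ≤ N := map_subtype_le _
  have hRp : IsPGroup r R := P.isPGroup'.map _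
  set T : Sylow r ↥(N ⊓ centralizer (A : Set G)) := default with hT
  set U := (T : Subgroup ↥(N ⊓ centralizer (A : Set G))).map (N ⊓ centralizer (A : Set G)).subtype with hU
  have hUle : U ≤ N ⊓ centralizer (A : Set G) := map_subtype_le _
  have hUp : IsPGroup r U := T.isPGroup'.map _
  have hUA : A ≤ normalizer (U : Set G) :=
    (le_centralizer_iff.1 (hUle.trans inf_le_right)).trans (centralizer_le_normalizer _)
  obtain ⟨Q, hUQ, hQA⟩ := H1.Coprime.invariant_psubgroup_le A N hA hcop (Or.inl hs) r U
    (hUle.trans inf_le_left) hUp hUA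
  obtain ⟨c, hc1, hc2⟩ := H1.Coprime.invariant_sylow_conj A N hA hcop (Or.inl hs) r Q P hQA hP
  have hsub : MulAut.conj (c : G) • U ≤ R ⊓ centralizer (A : Set G) := by
    intro y hy
    rw [H1.Basic.mem_conj] at hy
    refine ⟨?_, ?_⟩
    · obtain ⟨q, hq, e⟩ := hUQ hy
      have h1 : c * q * c⁻¹ ∈ (P : Subgroup N) := by
        rw [← hc2]
        show c * q * c⁻¹ ∈ MulAut.conj c • (Q : Subgroup N)
        rw [H1.Basic.mem_conj]
        have e3 : c⁻¹ * (c * q * c⁻¹) * c = q := by group
        rw [e3]; exact hq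
      refine ⟨c * q * c⁻¹, h1, ?_⟩
      have e' : (q : G) = (c : G)⁻¹ * y * c := e
      show (c : G) * q * (c : G)⁻¹ = y
      rw [e']; group
    · have h1 := (hUle hy).2
      have h2 := (centralizer (A : Set G)).mul_mem ((centralizer (A : Set G)).mul_mem hc1 h1)
        ((centralizer (A : Set G)).inv_mem hc1)
      have e3 : (c : G) * ((c : G)⁻¹ * y * c) * (c : G)⁻¹ = y := by group
      rwa [e3] at h2
  have hcU : Nat.card U = r ^ (FF N A).factorization r := by
    rw [hU, card_map_of_injective (N ⊓ centralizer (A : Set G)).subtype_injective, T.card_eq_multiplicity]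
    rfl
  have hle : Nat.card U ≤ FF R A := by
    rw [← H1.Basic.card_conj (c : G) U]
    exact H22.Basic.card_le_of_le hsub
  have hRC : IsPGroup r (R ⊓ centralizer (A : Set G) : Subgroup G) := hRp.to_le inf_le_left
  obtain ⟨k, hk⟩ := (IsPGroup.iff_card (p := r)).1 hRC
  have hk' : FF R A = r ^ k := hk
  have hdvd : r ^ k ∣ FF N A := by
    rw [← hk]
    exact card_dvd_of_le (inf_le_inf_right _ hRN)
  have hne : FF N A ≠ 0 := Nat.card_pos.ne'
  have hkle : k ≤ (FF N A).factorization r := (hr.out.pow_dvd_iff_le_factorization hne).1 hdvd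
  rw [hk'] at hle ⊢
  rw [hcU] at hle
  exact le_antisymm (Nat.pow_le_pow_right hr.out.pos hkle) hle

theorem prod_fact {m n : ℕ} (hm : m ≠ 0) (hn : n ≠ 0) (h : m ∣ n) :
    ∏ r ∈ n.primeFactors, r ^ m.factorization r = m := by
  conv_rhs => rw [← Nat.prod_factorization_pow_eq_self hm]
  rw [Finsupp.prod_of_support_subset m.factorization (s := n.primeFactors) (by
    rw [Nat.support_factorization]; exact Nat.primeFactors_mono h hn) _ (fun i _ => pow_zero i)]

end

theorem B_gen {p : ℕ} [hp : Fact p.Prime] {P : Type v} [Group P] [Fintype P] (hP : IsPGroup p P) (n : ℕ) :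
    ∀ (G : Type u) [Group G] [Finite G] (φ : P →* G) (N : Subgroup G), Nat.card N = n →
    φ.range ≤ normalizer (N : Set G) → (Nat.card P).Coprime (Nat.card N) →
    (∏ x : P, FF N (zpowers (φ x))) ^ p ≤
      Nat.card N ^ Fintype.card P * FF N φ.range ^ ((p - 1) * Fintype.card P) := by
  classical
  induction n using Nat.strong_induction_on with
  | _ n ih =>
  intro G _ _ φ N hn hN hcop
  by_cases hab : ∀ x ∈ N, ∀ y ∈ N, x * y = y * x
  · exact B_ab hP φ n N hn hab hN hcop
  have hrP : IsPGroup p φ.range := hP.of_surjective φ.rangeRestrict φ.rangeRestrict_surjective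
  have hsub : ∀ A : Subgroup G, A ≤ φ.range → Group.IsSolvable A ∧ (Nat.card A).Coprime (Nat.card N) := by
    intro A hA
    have h1 : IsPGroup p A := hrP.to_le hA
    have h2 := h1.isNilpotent
    refine ⟨inferInstance, ?_⟩
    have h3 : Nat.card φ.range ∣ Nat.card P := by
      exact Subgroup.card_range_dvd φ
    exact (hcop.coprime_dvd_left h3).coprime_dvd_left (card_dvd_of_le hA)
  have hzr : ∀ x, zpowers (φ x) ≤ φ.range := fun x => zpowers_le.2 (MonoidHom.mem_range.2 ⟨x, rfl⟩)
  by_cases hrg : ∃ r : ℕ, r.Prime ∧ IsPGroup r N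
  · -- nonabelian r-group
    obtain ⟨r, hr, hNr⟩ := hrg
    have : Fact r.Prime := ⟨hr⟩
    set H : Subgroup G := φ.range ⊔ N with hH
    have hφH : ∀ x, φ x ∈ H := fun x => mem_sup_left (MonoidHom.mem_range.2 ⟨x, rfl⟩)
    have hNH : N ≤ H := le_sup_right
    set φ' : P →* H := φ.codRestrict H hφH with hφ'
    set N' : Subgroup H := N.subgroupOf H with hN'
    have hmN : N'.map H.subtype = N := H22.Basic.map_subtype_subgroupOf hNH
    have hN'n : N'.Normal := by
      rw [hN', normal_subgroupOf_iff_le_normalizer hNH]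
      exact sup_le hN le_normalizer
    have hcN' : Nat.card N' = Nat.card N := H22.Basic.card_subgroupOf_eq hNH
    set Z : Subgroup H := N' ⊓ centralizer (N' : Set H) with hZ
    have hZN : Z ≤ N' := inf_le_left
    have hZn : Z.Normal := by
      have h1 : (centralizer (N' : Set H)).Normal := by
        rw [← normalizer_eq_top_iff, eq_top_iff]
        exact H22.Basic.le_normalizer_centralizer (by rw [normalizer_eq_top])
      exact inferInstanceAs ((N' ⊓ centralizer (N' : Set H)).Normal)
    have hN'r : IsPGroup r N' := hNr.of_equiv (subgroupOfEquivOfLe hNH).symm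
    have hnab : ¬ (∀ x ∈ N', ∀ y ∈ N', x * y = y * x) := by
      intro h
      apply hab
      intro x hx y hy
      exact congrArg Subtype.val (h ⟨x, hNH hx⟩ hx ⟨y, hNH hy⟩ hy)
    have hZlt : Z < N' := by
      refine lt_of_le_of_ne hZN (fun h => hnab ?_)
      intro x hx y hy
      have : x ∈ Z := by rw [h]; exact hx
      exact (mem_centralizer_iff.1 this.2 y hy).symm
    have hZb : Z ≠ ⊥ := by
      have hN't : Nontrivial N' := by
        rw [Subgroup.nontrivial_iff_ne_bot]
        rintro h
        apply hnab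
        intro x hx y hy
        rw [h, mem_bot] at hx hy
        rw [hx, hy]
      have hcn := hN'r.center_nontrivial
      obtain ⟨c, hc1⟩ := exists_ne (1 : center N')
      intro hb
      apply hc1
      have : (c.1 : H) ∈ Z := by
        refine ⟨c.1.2, mem_centralizer_iff.2 ?_⟩
        intro y hy
        exact congrArg Subtype.val (mem_center_iff.1 c.2 ⟨y, hy⟩)
      rw [hb, mem_bot] at this
      exact Subtype.ext (Subtype.ext this)
    set f := QuotientGroup.mk' Z with hf
    have hcardN : Nat.card N' = Nat.card Z * Nat.card (N'.map f) := by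
      rw [card_ker_map' f N', hf, QuotientGroup.ker_mk', inf_eq_left.2 hZN]
    have hZ1 : 1 < Nat.card Z := by
      have := (Subgroup.nontrivial_iff_ne_bot Z).2 hZb
      exact Finite.one_lt_card
    have hmlt : Nat.card (N'.map f) < n := by
      rw [← hn, ← hcN', hcardN]
      have : 0 < Nat.card (N'.map f) := Nat.card_pos
      nlinarith
    have hZltn : Nat.card Z < n := by
      rw [← hn, ← hcN']; exact H22.Basic.card_lt_of_lt hZlt
    have hcop' : (Nat.card P).Coprime (Nat.card N') := by rw [hcN']; exact hcop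
    have i1 := ih _ hZltn H φ' Z rfl (by rw [normalizer_eq_top]; exact le_top)
      (hcop'.coprime_dvd_right (card_dvd_of_le hZN))
    have i2 := ih _ hmlt (H ⧸ Z) (f.comp φ') (N'.map f) rfl (by
        have : (N'.map f).Normal := hN'n.map f (QuotientGroup.mk'_surjective Z)
        rw [normalizer_eq_top]; exact le_top)
      (hcop'.coprime_dvd_right (card_map_dvd _ _))
    -- relate
    have hmr : φ'.range.map H.subtype = φ.range := by
      rw [← MonoidHom.range_comp]; rfl
    have hsub' : ∀ A : Subgroup H, A ≤ φ'.range → FF N' A = FF Z A * FF (N'.map f) (A.map f) := by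
      intro A hA
      have h1 : A.map H.subtype ≤ φ.range := by rw [← hmr]; exact map_mono hA
      obtain ⟨h2, h3⟩ := hsub _ h1
      have e1 : Nat.card (A.map H.subtype) = Nat.card A := card_map_of_injective H.subtype_injective
      have h4 : Group.IsSolvable A :=
        Group.isSolvable_of_isSolvable_injective (f := (A.equivMapOfInjective _ H.subtype_injective).toMonoidHom)
          (A.equivMapOfInjective _ H.subtype_injective).injective
      exact FF_quot hZn hZN (by rw [normalizer_eq_top]; exact le_top) (by rw [← e1, hcN']; exact h3) h4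
    have e1 : ∀ x, FF N (zpowers (φ x)) = FF Z (zpowers (φ' x)) * FF (N'.map f) (zpowers ((f.comp φ') x)) := by
      intro x
      have h1 := hsub' (zpowers (φ' x)) (zpowers_le.2 (MonoidHom.mem_range.2 ⟨x, rfl⟩))
      rw [MonoidHom.map_zpowers] at h1
      have h2 := FF_sub hNH (zpowers (φ' x))
      rw [MonoidHom.map_zpowers] at h2
      exact h2.symm.trans h1
    have e2 : FF N φ.range = FF Z φ'.range * FF (N'.map f) (f.comp φ').range := by
      have h1 := hsub' φ'.range le_rfl
      have h2 := FF_sub hNH φ'.range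
      rw [hmr] at h2
      rw [← h2, h1, MonoidHom.range_comp]
    rw [Finset.prod_congr rfl (fun x _ => e1 x), Finset.prod_mul_distrib, mul_pow, e2, ← hcN', hcardN, mul_pow, mul_pow]
    calc _ ≤ _ := Nat.mul_le_mul i1 i2
      _ = _ := by ring
  · -- not of prime power order
    push_neg at hrg
    have hex : ∀ r : ℕ, ∃ R : Subgroup G, r.Prime → (Nat.card R < n ∧ R ≤ N ∧ φ.range ≤ normalizer (R : Set G) ∧
        Nat.card R = r ^ (Nat.card N).factorization r ∧
        ∀ A ≤ φ.range, FF R A = r ^ (FF N A).factorization r) := by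
      intro r
      by_cases hr : r.Prime
      · have : Fact r.Prime := ⟨hr⟩
        obtain ⟨h1, h2⟩ := hsub φ.range le_rfl
        obtain ⟨S, hS⟩ := H1.Coprime.invariant_sylow_exists φ.range N hN h2 (Or.inl h1) r
        refine ⟨(S : Subgroup N).map N.subtype, fun _ => ⟨?_, map_subtype_le _, hS, H1.Coprime.card_map_sylow S, ?_⟩⟩
        · rw [← hn]
          apply H22.Basic.card_lt_of_lt
          refine lt_of_le_of_ne (map_subtype_le _) (fun h => hrg r hr ?_)
          rw [← h]; exact S.isPGroup'.map _
        · intro A hA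
          obtain ⟨h3, h4⟩ := hsub A hA
          exact FF_sylow (hA.trans hN) h4 h3 S (hA.trans hS)
      · exact ⟨⊥, fun h => absurd h hr⟩
    choose R hR using hex
    have hNne : Nat.card N ≠ 0 := Nat.card_pos.ne'
    have hprime : ∀ r ∈ (Nat.card N).primeFactors, r.Prime := fun r hr => Nat.prime_of_mem_primeFactors hr
    have hFF : ∀ A ≤ φ.range, FF N A = ∏ r ∈ (Nat.card N).primeFactors, FF (R r) A := by
      intro A hA
      have hd : FF N A ∣ Nat.card N := card_dvd_of_le inf_le_left
      have hne : FF N A ≠ 0 := Nat.card_pos.ne'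
      conv_lhs => rw [← prod_fact hne hNne hd]
      apply Finset.prod_congr rfl
      intro r hr
      rw [(hR r (hprime r hr)).2.2.2.2 A hA]
    have hNc : Nat.card N = ∏ r ∈ (Nat.card N).primeFactors, Nat.card (R r) := by
      conv_lhs => rw [← prod_fact hNne hNne dvd_rfl]
      apply Finset.prod_congr rfl
      intro r hr
      rw [(hR r (hprime r hr)).2.2.2.1]
    have hih : ∀ r ∈ (Nat.card N).primeFactors, (∏ x : P, FF (R r) (zpowers (φ x))) ^ p ≤
        Nat.card (R r) ^ Fintype.card P * FF (R r) φ.range ^ ((p - 1) * Fintype.card P) := by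
      intro r hr
      obtain ⟨h1, h2, h3, -, -⟩ := hR r (hprime r hr)
      exact ih _ h1 G φ (R r) rfl h3 (hcop.coprime_dvd_right (card_dvd_of_le h2))
    have hprod := Finset.prod_le_prod' hih
    rw [Finset.prod_mul_distrib, Finset.prod_pow, Finset.prod_pow, Finset.prod_pow, ← hNc, ← hFF _ le_rfl,
      Finset.prod_comm] at hprod
    rw [Finset.prod_congr rfl (fun x _ => hFF _ (hzr x))]
    exact hprod

end Cfsg.Agent.H12.NP
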