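import Cfsg.Agent.H12_NP3
import Cfsg.Agent.H13_Syl
import Cfsg.Agent.H11_PComp2
import Cfsg.Agent.H22_PSolv

set_option autoImplicit false
set_option linter.all false

/-!
The number of `p`-elements of a `p`-solvable group.
-/

namespace Cfsg.Agent.H12.NP

open Subgroup
open scoped commutatorElement Pointwise
open Cfsg.Agent

universe u v w

/-- the number of `g` with `x ∈ g P g⁻¹` -/
noncomputable def mu {G : Type u} [Group G] (P : Subgroup G) (x : G) : ℕ := Nat.card {g : G // g⁻¹ * x * g ∈ P}

theorem cnt {G : Type u} [Group G] [Finite G] {G' : Type v} {S : G → Prop} {S' : G' → Prop} (C : Subgroup G)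
    (f : G → G') (h1 : ∀ c ∈ C, ∀ g, S g → S (c * g)) (h2 : ∀ c ∈ C, ∀ g, f (c * g) = f g)
    (h3 : ∀ g g', S g → S g' → f g = f g' → g' * g⁻¹ ∈ C) (h4 : ∀ g, S g → S' (f g))
    (h5 : ∀ t, S' t → ∃ g, S g ∧ f g = t) :
    Nat.card {g // S g} = Nat.card C * Nat.card {t // S' t} := by
  classical
  choose sec hs1 hs2 using h5
  rw [← Nat.card_prod]
  symm
  apply Nat.card_congr
  refine Equiv.ofBijective (fun x : C × {t // S' t} => (⟨x.1 * sec x.2.1 x.2.2, h1 _ x.1.2 _ (hs1 _ _)⟩ : {g // S g})) ⟨?_, ?_⟩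
  · rintro ⟨c, t, ht⟩ ⟨c', t', ht'⟩ h
    have h6 : (c : G) * sec t ht = c' * sec t' ht' := congrArg Subtype.val h
    have h7 : t = t' := by
      have := congrArg f h6
      rw [h2 _ c.2, h2 _ c'.2, hs2, hs2] at this
      exact this
    subst h7
    have h8 : c = c' := Subtype.ext (mul_right_cancel h6)
    rw [h8]
  · rintro ⟨g, hg⟩
    have h6 := h3 (sec (f g) (h4 g hg)) g (hs1 _ _) hg (hs2 _ _)
    refine ⟨(⟨_, h6⟩, ⟨f g, h4 g hg⟩), ?_⟩
    apply Subtype.ext
    show g * (sec (f g) (h4 g hg))⁻¹ * sec (f g) (h4 g hg) = g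
    rw [inv_mul_cancel_right]

theorem prod_hom {A : Type u} {B : Type v} [Group A] [Group B] [Fintype A] [Fintype B] (g : A →* B)
    (hg : Function.Surjective g) (F : B → ℕ) : ∏ a : A, F (g a) = (∏ b : B, F b) ^ Nat.card g.ker := by
  classical
  rw [← Finset.prod_fiberwise_of_maps_to (s := Finset.univ) (t := Finset.univ) (g := g) (fun _ _ => Finset.mem_univ _),
    ← Finset.prod_pow]
  apply Finset.prod_congr rfl
  intro b _
  rw [Finset.prod_congr rfl (g := fun _ => F b) (fun a ha => by rw [(Finset.mem_filter.1 ha).2]), Finset.prod_const]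
  congr 1
  rw [MonoidHom.card_fiber_eq_of_mem_range g (x := b) (y := 1) (hg b) ⟨1, map_one g⟩]
  rw [← Fintype.card_subtype, Nat.card_eq_fintype_card]
  apply Fintype.card_congr
  exact Equiv.refl _

theorem A_main {p : ℕ} [hp : Fact p.Prime] (n : ℕ) : ∀ (G : Type u) [Group G] [Finite G] (P : Subgroup G) [Fintype P],
    Cfsg.IsPSolvable p G → Nat.card G = n → IsPGroup p P → ¬ p ∣ P.index →
    (∏ x : P, mu P x) ^ p ≤ Nat.card G ^ Fintype.card P *
      Nat.card (normalizer (P : Set G) : Subgroup G) ^ ((p - 1) * Fintype.card P) := by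
  classical
  induction n using Nat.strong_induction_on with
  | _ n ih =>
  intro G _ _ P _ hG hn hP hind
  rcases subsingleton_or_nontrivial G with hs | hnt
  · have h1 : (∏ x : P, mu P x) ^ p ≤ 1 := by
      apply pow_le_one₀ (Nat.zero_le _)
      apply Finset.prod_le_one'
      intro x _
      rw [mu]
      exact Finite.card_le_one_iff_subsingleton.2 inferInstance
    exact h1.trans (Nat.succ_le_of_lt (Nat.mul_pos (pow_pos Nat.card_pos _) (pow_pos Nat.card_pos _)))
  obtain ⟨N, hN, -, hNb, hF⟩ := H22.PSolv.exists_normal_fac hG ⊤ top_ne_bot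
  have hSyl : H13.Syl.IsSylIn p P ⊤ := ⟨le_top, hP, by rw [relIndex_top_right]; exact hind⟩
  set f := QuotientGroup.mk' N with hf
  have hfs : Function.Surjective f := QuotientGroup.mk'_surjective N
  have hker : f.ker = N := QuotientGroup.ker_mk' N
  have hfN : ∀ {m : G}, m ∈ N ↔ f m = 1 := fun {m} => (QuotientGroup.eq_one_iff m).symm
  have hcG : Nat.card G = Nat.card N * Nat.card (G ⧸ N) := by
    rw [mul_comm]; exact card_eq_card_quotient_mul_card_subgroup N
  have hN1 : 1 < Nat.card N := by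
    have := (Subgroup.nontrivial_iff_ne_bot N).2 hNb
    exact Finite.one_lt_card
  have hlt : Nat.card (G ⧸ N) < n := by
    rw [← hn, hcG]
    have : 0 < Nat.card (G ⧸ N) := Nat.card_pos
    nlinarith
  have hind' : ¬ p ∣ (P.map f).index := fun h => hind (h.trans (index_map_dvd P hfs))
  letI : Fintype (P.map f) := Fintype.ofFinite _
  have hih := ih _ hlt (G ⧸ N) (P.map f) (H22.PSolv.isPSolvable_quotient N hG) rfl (hP.map f) hind'
  -- the restriction of f
  set g := f.subgroupMap P with hg
  have hgs : Function.Surjective g := f.subgroupMap_surjective P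
  have hgker : Nat.card g.ker = Nat.card (N ⊓ P : Subgroup G) := by
    have h1 : (g.ker).map P.subtype = N ⊓ P := by
      ext x
      constructor
      · rintro ⟨y, hy, rfl⟩
        have : f y.1 = 1 := congrArg Subtype.val hy
        exact ⟨hfN.2 this, y.2⟩
      · rintro ⟨h1, h2⟩
        exact ⟨⟨x, h2⟩, Subtype.ext (hfN.1 h1), rfl⟩
    rw [← h1, card_map_of_injective P.subtype_injective]
  have hprodF : ∏ x : P, mu (P.map f) (f x) = (∏ y : P.map f, mu (P.map f) y) ^ Nat.card g.ker :=
    prod_hom g hgs (fun y => mu (P.map f) y)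
  have hcP : Fintype.card P = Nat.card (N ⊓ P : Subgroup G) * Fintype.card (P.map f) := by
    rw [← Nat.card_eq_fintype_card, ← Nat.card_eq_fintype_card, card_ker_map' f P, hker]
  obtain ⟨q, hq⟩ := Nat.exists_eq_succ_of_ne_zero hp.out.ne_zero
  have hq1 : p - 1 = q := by rw [hq]; rfl
  by_cases hNp : IsPGroup p N
  · -- p-group
    have hNP : N ≤ P := by
      have h1 : IsPGroup p (P ⊔ N : Subgroup G) := hP.to_sup_of_normal_right hNp
      have := hSyl.eq_of_le h1 le_top le_sup_left
      rw [← this]; exact le_sup_right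
    have hcomap : (P.map f).comap f = P := by rw [comap_map_eq, hker, sup_eq_left.2 hNP]
    have hmem : ∀ y, f y ∈ P.map f ↔ y ∈ P := fun y => by
      conv_rhs => rw [← hcomap]
      rfl
    have hmu : ∀ x : G, mu P x = Nat.card N * mu (P.map f) (f x) := by
      intro x
      apply cnt N f
      · intro c hc g hg
        have hfc : f c = 1 := hfN.1 hc
        rw [← hmem] at hg ⊢
        have e : f ((c * g)⁻¹ * x * (c * g)) = f (g⁻¹ * x * g) := by
          simp only [map_mul, map_inv, hfc, one_mul]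
        rw [e]; exact hg
      · intro c hc g
        rw [map_mul, hfN.1 hc, one_mul]
      · intro g g' _ _ h
        rw [hfN, map_mul, map_inv, h, mul_inv_cancel]
      · intro g hg
        have := (hmem _).2 hg
        simpa only [map_mul, map_inv] using this
      · intro t ht
        obtain ⟨g, rfl⟩ := hfs t
        refine ⟨g, ?_, rfl⟩
        rw [← hmem]
        simpa only [map_mul, map_inv] using ht
    have hnorm : Nat.card (normalizer (P : Set G) : Subgroup G) =
        Nat.card N * Nat.card (normalizer ((P.map f : Subgroup (G ⧸ N)) : Set (G ⧸ N)) : Subgroup (G ⧸ N)) := by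
      have h1 : (normalizer ((P.map f : Subgroup (G ⧸ N)) : Set (G ⧸ N)) : Subgroup (G ⧸ N)).comap f =
          normalizer (P : Set G) := by
        have := Subgroup.comap_normalizer_eq_of_surjective (P.map f) hfs
        rw [this, hcomap]
      rw [card_ker_map' f, hker, ← h1, map_comap_eq_self_of_surjective hfs]
      have h2 : N ⊓ (normalizer ((P.map f : Subgroup (G ⧸ N)) : Set (G ⧸ N)) : Subgroup (G ⧸ N)).comap f = N := by
        rw [inf_eq_left, h1]
        exact hNP.trans le_normalizer
      rw [h2]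
    rw [inf_eq_left.2 hNP] at hcP hgker
    have e1 : ∏ x : P, mu P x = Nat.card N ^ Fintype.card P * (∏ y : P.map f, mu (P.map f) y) ^ Nat.card N := by
      rw [← hgker, ← hprodF, Finset.prod_congr rfl (fun (x : P) _ => hmu x), Finset.prod_mul_distrib, Finset.prod_const,
        Finset.card_univ, hgker]
    rw [hq1] at hih ⊢
    rw [e1, hcG, hnorm, hcP]
    have h9 := Nat.pow_le_pow_left hih (Nat.card N)
    calc (Nat.card N ^ (Nat.card N * Fintype.card (P.map f)) * (∏ y : P.map f, mu (P.map f) y) ^ Nat.card N) ^ p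
        = Nat.card N ^ (Nat.card N * Fintype.card (P.map f) * p) * ((∏ y : P.map f, mu (P.map f) y) ^ p) ^ Nat.card N := by
          rw [mul_pow, ← pow_mul, ← pow_mul, ← pow_mul, mul_comm (Nat.card N) p]
      _ ≤ Nat.card N ^ (Nat.card N * Fintype.card (P.map f) * p) * _ := Nat.mul_le_mul_left _ h9
      _ = _ := by
          rw [hq, Nat.succ_eq_add_one]
          ring
  · -- p'-group
    have hNc : (Nat.card N).Coprime p := by
      rcases hF with ⟨k, hk⟩ | h
      · exact absurd (IsPGroup.of_card hk) hNp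
      · exact h
    have hcopPN : (Nat.card P).Coprime (Nat.card N) := by
      obtain ⟨k, hk⟩ := (IsPGroup.iff_card (p := p)).1 hP
      rw [hk]; exact (hNc.symm).pow_left k
    have hinf : P ⊓ N = ⊥ := H22.Basic.inf_eq_bot_of_coprime hcopPN
    have hinf' : N ⊓ P = ⊥ := by rw [inf_comm]; exact hinf
    rw [hinf', card_bot] at hcP hgker
    rw [one_mul] at hcP
    rw [hgker, pow_one] at hprodF
    have hSyl2 : H13.Syl.IsSylIn p P (P ⊔ N) := by
      refine ⟨le_sup_left, hP, fun h => hind (h.trans ?_)⟩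
      exact relIndex_dvd_index_of_le le_sup_left
    have hmu : ∀ x ∈ P, mu P x = FF N (zpowers x) * mu (P.map f) (f x) := by
      intro x hxP
      apply cnt (N ⊓ centralizer ((zpowers x : Subgroup G) : Set G)) f
      · intro c hc g hg
        have h1 : x * c = c * x := mem_centralizer_iff.1 hc.2 x (mem_zpowers x)
        have e : (c * g)⁻¹ * x * (c * g) = g⁻¹ * x * g := by
          calc (c * g)⁻¹ * x * (c * g) = g⁻¹ * c⁻¹ * (x * c) * g := by group
            _ = g⁻¹ * c⁻¹ * (c * x) * g := by rw [h1]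
            _ = g⁻¹ * x * g := by group
        rw [e]; exact hg
      · intro c hc g
        rw [map_mul, hfN.1 hc.1, one_mul]
      · intro g g' hg hg' h
        have hm : g' * g⁻¹ ∈ N := by rw [hfN, map_mul, map_inv, h, mul_inv_cancel]
        refine ⟨hm, mem_centralizer_zpowers.2 ?_⟩
        have h1 : (g⁻¹ * x * g)⁻¹ * (g'⁻¹ * x * g') ∈ P ⊓ N := by
          refine ⟨P.mul_mem (P.inv_mem hg) hg', hfN.2 ?_⟩
          simp only [map_mul, map_inv, h]
          group
        rw [hinf, mem_bot, inv_mul_eq_one] at h1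
        have h2 : g' * g⁻¹ * x * (g' * g⁻¹)⁻¹ = g' * (g⁻¹ * x * g) * g'⁻¹ := by group
        have h3 : g' * g⁻¹ * x * (g' * g⁻¹)⁻¹ = x := by rw [h2, h1]; group
        rw [mul_inv_eq_iff_eq_mul] at h3 ⊢
        exact h3.symm
      · intro g hg
        have := mem_map_of_mem f hg
        simpa only [map_mul, map_inv] using this
      · intro t ht
        obtain ⟨g₀, rfl⟩ := hfs t
        have hy : g₀⁻¹ * x * g₀ ∈ P ⊔ N := by
          have h1 : f (g₀⁻¹ * x * g₀) ∈ P.map f := by simpa only [map_mul, map_inv] using ht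
          have h2 : g₀⁻¹ * x * g₀ ∈ (P.map f).comap f := h1
          rwa [comap_map_eq, hker] at h2
        have hyp : IsPGroup p (zpowers (g₀⁻¹ * x * g₀)) := by
          obtain ⟨k, hk⟩ := hP ⟨x, hxP⟩
          have hxk : x ^ p ^ k = 1 := congrArg Subtype.val hk
          have : (g₀⁻¹ * x * g₀) ^ p ^ k = 1 := by
            have e : g₀⁻¹ * x * g₀ = g₀⁻¹ * x * (g₀⁻¹)⁻¹ := by rw [inv_inv]
            rw [e, conj_pow, hxk]; group
          obtain ⟨j, -, hj⟩ := (Nat.dvd_prime_pow hp.out).1 (orderOf_dvd_of_pow_eq_one this)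
          exact IsPGroup.of_card (by rw [Nat.card_zpowers, hj])
        obtain ⟨h, hh, hle⟩ := hSyl2.exists_conj_le hyp (zpowers_le.2 hy)
        obtain ⟨a, ha, m, hm, rfl⟩ := (Subgroup.mem_sup_of_normal_right).1 hh
        have h3 : (a * m) * (g₀⁻¹ * x * g₀) * (a * m)⁻¹ ∈ P := hle ⟨_, mem_zpowers _, rfl⟩
        have h4 : m * (g₀⁻¹ * x * g₀) * m⁻¹ ∈ P := by
          have := mul_mem (mul_mem (inv_mem ha) h3) ha
          have e : a⁻¹ * ((a * m) * (g₀⁻¹ * x * g₀) * (a * m)⁻¹) * a = m * (g₀⁻¹ * x * g₀) * m⁻¹ := by group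
          rwa [e] at this
        refine ⟨g₀ * m⁻¹, ?_, ?_⟩
        · have e : (g₀ * m⁻¹)⁻¹ * x * (g₀ * m⁻¹) = m * (g₀⁻¹ * x * g₀) * m⁻¹ := by group
          rw [e]; exact h4
        · rw [map_mul, map_inv, hfN.1 hm, inv_one, mul_one]
    have hB := B_gen hP (Nat.card N) G P.subtype N rfl (by rw [normalizer_eq_top]; exact le_top) hcopPN
    rw [P.range_subtype] at hB
    have hnorm : Nat.card (normalizer (P : Set G) : Subgroup G) =
        FF N P * Nat.card (normalizer ((P.map f : Subgroup (G ⧸ N)) : Set (G ⧸ N)) : Subgroup (G ⧸ N)) := by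
      rw [card_ker_map' f, hker, H11.PComp.map_normalizer_of_coprime_ker f hfs p (by rw [hker]; exact hNc) hP, FF]
      congr 2
      have : N ⊓ normalizer (P : Set G) = N ⊓ centralizer (P : Set G) := by
        apply le_antisymm
        · rintro x ⟨h1, h2⟩
          exact ⟨h1, H1.Coprime.mem_centralizer_of_mem_normalizer (by rw [normalizer_eq_top]; exact le_top) hinf h1 h2⟩
        · exact inf_le_inf_left _ (centralizer_le_normalizer _)
      rw [this]
    have e1 : ∏ x : P, mu P x = (∏ x : P, FF N (zpowers (P.subtype x))) * (∏ y : P.map f, mu (P.map f) y) := by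
      rw [← hprodF, ← Finset.prod_mul_distrib]
      exact Finset.prod_congr rfl (fun x _ => hmu x x.2)
    rw [← hcP] at hih
    rw [e1, mul_pow, hcG, hnorm, mul_pow, mul_pow]
    calc _ ≤ _ := Nat.mul_le_mul hB hih
      _ = _ := by ring

end Cfsg.Agent.H12.NP
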