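import Cfsg.Agent.H2_Fusion4
import Cfsg.Agent.H11_FStar
import Cfsg.Agent.H11_Bal3
import Cfsg.Agent.H3_SmallRep2
import Cfsg.Agent.H22_Basic
import Cfsg.Agent.H1_Nilp
import Cfsg.Agent.H13_Syl

set_option autoImplicit false
set_option linter.all false

/-!
Groups with a nonabelian two-generator Sylow `p`-subgroup.
-/

namespace Cfsg.Agent.H12.TP

open Subgroup
open scoped commutatorElement Pointwise
open Cfsg Cfsg.Agent Cfsg.Agent.H2.PGroup

universe u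

variable {G : Type u} [Group G] [Finite G] {p : ℕ} [hp : Fact p.Prime]

/-- `Φ(P)` inside `G` -/
noncomputable abbrev FP (P : Sylow p G) : Subgroup G := (frattini ↥(P : Subgroup G)).map (P : Subgroup G).subtype

theorem pgroup_of_npc (hcore : pPrimeCore p G = ⊥) {N : Subgroup G} (hN : N.IsSubnormal)
    (h : HasNormalPComplement p N) : IsPGroup p N := by
  obtain ⟨M, hM, hMp, k, hk⟩ := H2.Basic.npc_iff.1 h
  have h1 : (M.map N.subtype).IsSubnormal := (hM.isSubnormal).trans' hN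
  have h2 : (Nat.card (M.map N.subtype)).Coprime p := by
    rw [card_map_of_injective N.subtype_injective]
    exact ((Nat.Prime.coprime_iff_not_dvd hp.out).2 hMp).symm
  have h3 := H11.Cores.le_pPrimeCore_of_isSubnormal p h1 h2
  rw [hcore, le_bot_iff, map_eq_bot_iff_of_injective _ N.subtype_injective] at h3
  rw [h3, index_bot] at hk
  exact IsPGroup.of_card hk

/-- Tate -/
theorem tateN (hcore : pPrimeCore p G = ⊥) (P : Sylow p G) {N : Subgroup G} (hN : N.IsSubnormal)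
    (hPN : (P : Subgroup G) ≤ normalizer (N : Set G)) (h : N ⊓ (P : Subgroup G) ≤ FP P) : IsPGroup p N := by
  apply pgroup_of_npc hcore hN
  set L : Subgroup G := (P : Subgroup G) ⊔ N with hL
  have hPL : (P : Subgroup G) ≤ L := le_sup_left
  have hNL : N ≤ L := le_sup_right
  have hN' : (N.subgroupOf L).Normal := by
    rw [normal_subgroupOf_iff_le_normalizer hNL]
    exact sup_le hPN le_normalizer
  let P₁ : Sylow p L := P.subtype hPL
  let e : (P : Subgroup G) ≃* (P₁ : Subgroup L) := (subgroupOfEquivOfLe hPL).symm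
  have hfr : ∀ y : (P : Subgroup G), y ∈ frattini ↥(P : Subgroup G) → e y ∈ frattini ↥(P₁ : Subgroup L) := by
    intro y hy
    rw [H1.Nilp.mem_frattini_iff]
    intro M hM
    obtain ⟨-, hMi⟩ := H1.Nilp.index_eq_of_isCoatom_pgroup P₁.isPGroup' hM
    have hM' : IsCoatom (M.comap e.toMonoidHom) := by
      apply isCoatom_of_index (p := p)
      rw [index_comap_of_surjective _ e.surjective, hMi]
    exact (H1.Nilp.mem_frattini_iff.1 hy) _ hM'
  have h1 : HasNormalPComplement p (N.subgroupOf L) := by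
    apply H2.Fusion4.npc_of_inf_le_frattini P₁ (N.subgroupOf L)
    rintro x ⟨hx1, hx2⟩
    obtain ⟨y, hy, hyx⟩ := h ⟨hx1, (show (x : G) ∈ (P : Subgroup G) from hx2)⟩
    refine ⟨e y, hfr y hy, ?_⟩
    exact Subtype.ext hyx
  exact H2.Basic.npc_mulEquiv (subgroupOfEquivOfLe hNL).symm h1

theorem le_sylow_of_normal (P : Sylow p G) {N : Subgroup G} (hN : N.Normal) (hNp : IsPGroup p N) :
    N ≤ (P : Subgroup G) := by
  have h1 : IsPGroup p ((P : Subgroup G) ⊔ N : Subgroup G) := P.isPGroup'.to_sup_of_normal_right hNp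
  have := P.is_maximal' h1 le_sup_left
  rw [← this]; exact le_sup_right

/-- the hypotheses -/
structure Hy (P : Sylow p G) : Prop where
  na : ¬ IsMulCommutative (P : Subgroup G)
  gen : (frattini ↥(P : Subgroup G)).index = p ^ 2
  core : pPrimeCore p G = ⊥
  frat : (FP P).normalCore = ⊥

section
variable {P : Sylow p G} (h : Hy P)
include h

theorem not_le {N : Subgroup G} (hN : N.Normal) (hb : N ≠ ⊥) : ¬ (N ⊓ (P : Subgroup G) ≤ FP P) := by
  intro hle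
  have h1 := tateN h.core P hN.isSubnormal (by rw [normalizer_eq_top]; exact le_top) hle
  have h2 := le_sylow_of_normal P hN h1
  rw [inf_eq_left.2 h2] at hle
  have h3 : N ≤ (FP P).normalCore := (Subgroup.normal_le_normalCore).2 hle
  rw [h.frat] at h3
  exact hb (le_bot_iff.1 h3)

theorem cyc {D : Subgroup G} (hD : ¬ (D ⊓ (P : Subgroup G) ≤ FP P)) :
    ∃ x : (P : Subgroup G), D.subgroupOf (P : Subgroup G) ⊔ zpowers x = ⊤ := by
  set D' := D.subgroupOf (P : Subgroup G) with hD'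
  set Φ := frattini ↥(P : Subgroup G) with hΦ
  have hne : ¬ D' ≤ Φ := by
    intro hle
    apply hD
    rintro y ⟨hy1, hy2⟩
    exact ⟨⟨y, hy2⟩, hle (show (⟨y, hy2⟩ : (P : Subgroup G)) ∈ D' from hy1), rfl⟩
  have h1 : Φ.relIndex (Φ ⊔ D') * (Φ ⊔ D').index = p ^ 2 := by
    rw [relIndex_mul_index le_sup_left, ← h.gen]
  have h2 : (Φ ⊔ D').index ∣ p ^ 2 := ⟨_, by rw [mul_comm, h1]⟩
  obtain ⟨k, hk, hk'⟩ := (Nat.dvd_prime_pow hp.out).1 h2
  have hk1 : k ≤ 1 := by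
    by_contra hk2
    have hk3 : k = 2 := by omega
    rw [hk3] at hk'
    rw [hk'] at h1
    have h3 : Φ.relIndex (Φ ⊔ D') = 1 := by
      have : 0 < p ^ 2 := pow_pos hp.out.pos 2
      exact Nat.eq_of_mul_eq_mul_right this (by rw [h1, one_mul])
    rw [relIndex_eq_one] at h3
    exact hne (le_sup_right.trans h3)
  have key : ∀ x : (P : Subgroup G), (Φ ⊔ D') ⊔ zpowers x = ⊤ → D' ⊔ zpowers x = ⊤ := by
    intro x hx
    apply frattini_nongenerating
    rw [← hx, sup_comm, ← sup_assoc]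
  interval_cases k
  · rw [pow_zero, index_eq_one] at hk'
    exact ⟨1, key 1 (by rw [hk', top_sup_eq])⟩
  · rw [pow_one] at hk'
    have hco : IsCoatom (Φ ⊔ D') := isCoatom_of_index hk'
    obtain ⟨x, hx⟩ : ∃ x, x ∉ Φ ⊔ D' := by
      by_contra hcon
      push_neg at hcon
      exact hco.1 (eq_top_iff.2 (fun y _ => hcon y))
    refine ⟨x, key x (hco.2 _ (lt_of_le_of_ne le_sup_left (fun he => hx ?_)))⟩
    rw [he]; exact mem_sup_right (mem_zpowers x)

/-- elements of `P` -/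
theorem cyc_mem {D : Subgroup G} (hPD : (P : Subgroup G) ≤ normalizer (D : Set G))
    (hD : ¬ (D ⊓ (P : Subgroup G) ≤ FP P)) :
    ∃ x ∈ (P : Subgroup G), ∀ a ∈ (P : Subgroup G), ∃ n ∈ D, ∃ k : ℤ, a = n * x ^ k := by
  obtain ⟨x, hx⟩ := cyc h hD
  have hn : (D.subgroupOf (P : Subgroup G)).Normal := by
    refine ⟨fun n hn g => ?_⟩
    exact (mem_normalizer_iff.1 (hPD g.2) n).1 hn
  refine ⟨x, x.2, fun a ha => ?_⟩
  have h1 : (⟨a, ha⟩ : (P : Subgroup G)) ∈ D.subgroupOf (P : Subgroup G) ⊔ zpowers x := by rw [hx]; trivial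
  obtain ⟨n, hn', y, hy, he⟩ := (Subgroup.mem_sup_of_normal_left).1 h1
  obtain ⟨k, rfl⟩ := mem_zpowers_iff.1 hy
  exact ⟨n, hn', k, (congrArg Subtype.val he).symm⟩

theorem comm_mem {D : Subgroup G} (hPD : (P : Subgroup G) ≤ normalizer (D : Set G))
    (hD : ¬ (D ⊓ (P : Subgroup G) ≤ FP P)) : ∀ a ∈ (P : Subgroup G), ∀ b ∈ (P : Subgroup G), ⁅a, b⁆ ∈ D := by
  obtain ⟨x, hxP, hx⟩ := cyc_mem h hPD hD
  intro a ha b hb
  obtain ⟨n, hn, k, rfl⟩ := hx a ha
  obtain ⟨m, hm, l, rfl⟩ := hx b hb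
  have hD1 : ∀ g ∈ (P : Subgroup G), ∀ d ∈ D, g * d * g⁻¹ ∈ D := fun g hg d hd =>
    (mem_normalizer_iff.1 (hPD hg) d).1 hd
  have hk : x ^ k ∈ (P : Subgroup G) := zpow_mem hxP k
  have hl : x ^ l ∈ (P : Subgroup G) := zpow_mem hxP l
  have e : ⁅n * x ^ k, m * x ^ l⁆ = n * (x ^ k * m * (x ^ k)⁻¹) * (x ^ l * n⁻¹ * (x ^ l)⁻¹) * m⁻¹ := by
    rw [commutatorElement_def]
    have e1 : x ^ k * x ^ l = x ^ l * x ^ k := by rw [← zpow_add, ← zpow_add, add_comm]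
    calc n * x ^ k * (m * x ^ l) * (n * x ^ k)⁻¹ * (m * x ^ l)⁻¹
        = n * (x ^ k * m * (x ^ k)⁻¹) * (x ^ k * x ^ l) * (x ^ k)⁻¹ * n⁻¹ * (x ^ l)⁻¹ * m⁻¹ := by group
      _ = n * (x ^ k * m * (x ^ k)⁻¹) * (x ^ l * x ^ k) * (x ^ k)⁻¹ * n⁻¹ * (x ^ l)⁻¹ * m⁻¹ := by rw [e1]
      _ = _ := by group
  rw [e]
  exact D.mul_mem (D.mul_mem (D.mul_mem hn (hD1 _ hk m hm)) (hD1 _ hl _ (D.inv_mem hn))) (D.inv_mem hm)

/-- two subgroups as in Tate's theorem meet nontrivially -/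
theorem no_two' {D₁ D₂ : Subgroup G} (h1 : (P : Subgroup G) ≤ normalizer (D₁ : Set G))
    (h2 : (P : Subgroup G) ≤ normalizer (D₂ : Set G)) (h3 : ¬ (D₁ ⊓ (P : Subgroup G) ≤ FP P))
    (h4 : ¬ (D₂ ⊓ (P : Subgroup G) ≤ FP P)) (h5 : D₁ ⊓ D₂ = ⊥) : False := by
  apply h.na
  refine ⟨⟨fun a b => Subtype.ext ?_⟩⟩
  have h6 : ⁅(a : G), (b : G)⁆ ∈ D₁ ⊓ D₂ := ⟨comm_mem h h1 h3 a a.2 b b.2, comm_mem h h2 h4 a a.2 b b.2⟩
  rw [h5, mem_bot, commutatorElement_eq_one_iff_mul_comm] at h6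
  exact h6

theorem no_two {N₁ N₂ : Subgroup G} (h1 : N₁.Normal) (h2 : N₂.Normal) (b1 : N₁ ≠ ⊥) (b2 : N₂ ≠ ⊥) :
    N₁ ⊓ N₂ ≠ ⊥ := fun h5 =>
  no_two' h (by rw [normalizer_eq_top]; exact le_top) (by rw [normalizer_eq_top]; exact le_top)
    (not_le h h1 b1) (not_le h h2 b2) h5

end

end Cfsg.Agent.H12.TP
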