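import Cfsg.Agent.H12_TP
import Cfsg.Agent.H1_Frob3

set_option autoImplicit false
set_option linter.all false

/-!
Groups with a nonabelian two-generator Sylow `p`-subgroup, II.
-/

namespace Cfsg.Agent.H12.TP

open Subgroup
open scoped commutatorElement Pointwise
open Cfsg Cfsg.Agent Cfsg.Agent.H2.PGroup

universe u

variable {G : Type u} [Group G] [Finite G] {p : ℕ} [hp : Fact p.Prime]

theorem bez {i : ℤ} (hi : ¬ (p : ℤ) ∣ i) : ∃ a b : ℤ, a * i + b * p = 1 := by
  have h1 : IsCoprime i (p : ℤ) := by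
    have h2 : Prime (p : ℤ) := Nat.prime_iff_prime_int.1 hp.out
    exact ((Prime.coprime_iff_not_dvd h2).2 hi).symm
  obtain ⟨a, b, h⟩ := h1
  exact ⟨a, b, h⟩

theorem zN {N : Subgroup G} {z : G} (hz : z ^ p = 1) (hzN : z ∉ N) {i : ℤ} (hi : z ^ i ∈ N) : z ^ i = 1 := by
  by_cases hd : (p : ℤ) ∣ i
  · obtain ⟨c, rfl⟩ := hd
    rw [zpow_mul, zpow_natCast, hz, one_zpow]
  · exfalso
    obtain ⟨a, b, e⟩ := bez hd
    apply hzN
    have : z = (z ^ i) ^ a * (z ^ p) ^ b := by
      rw [← zpow_mul, ← zpow_natCast, ← zpow_mul, ← zpow_add, mul_comm i a, mul_comm (p : ℤ) b, e, zpow_one]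
    rw [this, hz, one_zpow, mul_one]
    exact zpow_mem hi a

section
variable {P : Sylow p G} (h : Hy P)
include h

theorem B1 {R N : Subgroup G} (hR : R.Normal) (hRP : R ≤ (P : Subgroup G)) (hRc : ∀ x ∈ R, ∀ y ∈ R, x * y = y * x)
    (hRp : ∀ x ∈ R, x ^ p = 1) (hN : N.Normal) (hNb : N ≠ ⊥) (hNR : N ≤ R) : N = R := by
  classical
  by_contra hne
  obtain ⟨x, hxP, hx⟩ := cyc_mem h (D := N) (by rw [normalizer_eq_top]; exact le_top) (not_le h hN hNb)
  obtain ⟨r, hrR, hrN⟩ : ∃ r ∈ R, r ∉ N := by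
    by_contra hcon
    push_neg at hcon
    exact hne (le_antisymm hNR hcon)
  obtain ⟨n, hn, k, hrk⟩ := hx r (hRP hrR)
  set y := x ^ k with hy
  have hyR : y ∈ R := by
    have : y = n⁻¹ * r := by rw [hrk]; group
    rw [this]; exact R.mul_mem (R.inv_mem (hNR hn)) hrR
  have hyN : y ∉ N := fun hyN => hrN (by rw [hrk]; exact N.mul_mem hn hyN)
  have hyp : y ^ p = 1 := hRp y hyR
  have hy1 : y ≠ 1 := fun e => hyN (by rw [e]; exact N.one_mem)
  have hyo : orderOf y = p := orderOf_eq_prime hyp hy1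
  have hyc : ∀ a ∈ (P : Subgroup G), a * y = y * a := by
    intro a ha
    obtain ⟨m, hm, l, rfl⟩ := hx a ha
    have e1 : m * y = y * m := hRc m (hNR hm) y hyR
    have e2 : x ^ l * y = y * x ^ l := by rw [hy, ← zpow_add, ← zpow_add, add_comm]
    rw [mul_assoc, e2, ← mul_assoc, e1, mul_assoc]
  have hgen : ∀ r' ∈ R, ∃ m ∈ N, ∃ j : ℤ, r' = m * y ^ j := by
    intro r' hr'
    obtain ⟨m, hm, l, hr'l⟩ := hx r' (hRP hr')
    have hxl : x ^ l ∈ R := by
      have : x ^ l = m⁻¹ * r' := by rw [hr'l]; group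
      rw [this]; exact R.mul_mem (R.inv_mem (hNR hm)) hr'
    have h1 : x ^ l ∈ zpowers y := by
      by_cases hl1 : x ^ l = 1
      · rw [hl1]; exact one_mem _
      · apply H1.Frob3.mem_zpowers_of_cyclic (C := zpowers x) inferInstance (zpow_mem (mem_zpowers x) l)
          (zpow_mem (mem_zpowers x) k)
        rw [← hy, hyo]
        exact orderOf_eq_prime (hRp _ hxl) hl1
    obtain ⟨j, hj⟩ := mem_zpowers_iff.1 h1
    exact ⟨m, hm, j, by rw [hj, hr'l]⟩
  have hconjR : ∀ g : G, g * y * g⁻¹ ∈ R := fun g => hR.conj_mem y hyR g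
  have hconjN : ∀ g : G, g * y * g⁻¹ ∉ N := by
    intro g hg
    apply hyN
    have := hN.conj_mem _ hg g⁻¹
    have e : g⁻¹ * (g * y * g⁻¹) * g⁻¹⁻¹ = y := by group
    rwa [e] at this
  have hconj : ∀ g : G, ∃ m ∈ N, ∃ j : ℤ, g * y * g⁻¹ = m * y ^ j := fun g => hgen _ (hconjR g)
  have hex : ∀ g : G, ∃ w, w ∈ zpowers (g * y * g⁻¹) ∧ w * y⁻¹ ∈ N := by
    intro g
    obtain ⟨m, hm, j, hj⟩ := hconj g
    have hpj : ¬ (p : ℤ) ∣ j := by
      rintro ⟨c, rfl⟩
      apply hconjN g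
      rw [hj, zpow_mul, zpow_natCast, hyp, one_zpow, mul_one]; exact hm
    obtain ⟨a, b, e⟩ := bez hpj
    refine ⟨(g * y * g⁻¹) ^ a, zpow_mem (mem_zpowers _) a, ?_⟩
    have hcm : Commute m (y ^ j) := hRc m (hNR hm) _ (R.zpow_mem hyR j)
    have e2 : y ^ (j * a) = y := by
      have : j * a = 1 - p * b := by linarith [e, mul_comm a j, mul_comm b (p : ℤ)]
      rw [this, zpow_sub, zpow_one, zpow_mul, zpow_natCast, hyp, one_zpow, inv_one, mul_one]
    rw [hj, hcm.mul_zpow, ← zpow_mul, e2, mul_inv_cancel_right]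
    exact N.zpow_mem hm a
  have huniq : ∀ g : G, ∀ w w' : G, w ∈ zpowers (g * y * g⁻¹) → w' ∈ zpowers (g * y * g⁻¹) → w * w'⁻¹ ∈ N → w = w' := by
    rintro g _ _ ⟨i, rfl⟩ ⟨j, rfl⟩ hw
    simp only at hw ⊢
    rw [← zpow_neg, ← zpow_add] at hw
    have := zN (hRp _ (hconjR g)) (hconjN g) hw
    rw [zpow_add, zpow_neg, mul_inv_eq_one] at this
    exact this
  choose wf hwf1 hwf2 using hex
  have hwfR : ∀ g, wf g ∈ R := fun g => (zpowers_le.2 (hconjR g)) (hwf1 g)
  have prop1 : ∀ g, ∀ a ∈ (P : Subgroup G), wf (g * a) = wf g := by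
    intro g a ha
    have e : g * a * y * (g * a)⁻¹ = g * y * g⁻¹ := by
      calc g * a * y * (g * a)⁻¹ = g * (a * y) * a⁻¹ * g⁻¹ := by group
        _ = g * (y * a) * a⁻¹ * g⁻¹ := by rw [hyc a ha]
        _ = g * y * g⁻¹ := by group
    have h1 := hwf1 (g * a)
    rw [e] at h1
    apply huniq g _ _ h1 (hwf1 g)
    have := N.mul_mem (hwf2 (g * a)) (N.inv_mem (hwf2 g))
    have e2 : wf (g * a) * y⁻¹ * (wf g * y⁻¹)⁻¹ = wf (g * a) * (wf g)⁻¹ := by group
    rwa [e2] at this
  choose mf hmf kf hkf using hconj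
  have prop2 : ∀ t g, t * wf g * t⁻¹ = wf (t * g) ^ kf t := by
    intro t g
    apply huniq (t * g)
    · obtain ⟨i, hi⟩ := mem_zpowers_iff.1 (hwf1 g)
      rw [← hi]
      refine mem_zpowers_iff.2 ⟨i, ?_⟩
      have e0 : t * g * y * (t * g)⁻¹ = t * (g * y * g⁻¹) * t⁻¹ := by group
      rw [e0, conj_zpow]
    · exact zpow_mem (hwf1 (t * g)) _
    · -- modulo N
      have h1 : t * (wf g * y⁻¹) * t⁻¹ ∈ N := hN.conj_mem _ (hwf2 g) t
      have hc1 : Commute (wf (t * g)) y⁻¹ := hRc _ (hwfR _) _ (R.inv_mem hyR)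
      have h2 : (wf (t * g) * y⁻¹) ^ kf t ∈ N := N.zpow_mem (hwf2 (t * g)) _
      rw [hc1.mul_zpow, inv_zpow] at h2
      -- t wf(g) t⁻¹ = (t (wf g y⁻¹) t⁻¹) * (t y t⁻¹)
      have e1 : t * wf g * t⁻¹ = (t * (wf g * y⁻¹) * t⁻¹) * (mf t * y ^ kf t) := by
        rw [← hkf t]; group
      have e2 : t * wf g * t⁻¹ * (wf (t * g) ^ kf t)⁻¹ =
          (t * (wf g * y⁻¹) * t⁻¹) * mf t * (wf (t * g) ^ kf t * (y ^ kf t)⁻¹)⁻¹ := by
        rw [e1]; group
      rw [e2]
      exact N.mul_mem (N.mul_mem h1 (hmf t)) (N.inv_mem h2)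
  -- the product
  letI cg : CommGroup R := { (inferInstance : Group R) with mul_comm := fun a b => Subtype.ext (hRc a a.2 b b.2) }
  have : Fintype (G ⧸ (P : Subgroup G)) := Fintype.ofFinite _
  let wR : G → R := fun g => ⟨wf g, hwfR g⟩
  set YR : R := ∏ q : G ⧸ (P : Subgroup G), wR q.out with hYR
  set Y : G := YR.1 with hY
  have hYR' : Y ∈ R := YR.2
  have hYconj : ∀ t : G, t * Y * t⁻¹ = Y ^ kf t := by
    intro t
    have e1 : MulAut.conjNormal t YR = YR ^ kf t := by
      have e2 : ∀ q : G ⧸ (P : Subgroup G), MulAut.conjNormal t (wR q.out) = (wR (t • q).out) ^ kf t := by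
        intro q
        apply Subtype.ext
        rw [MulAut.conjNormal_apply]
        show t * wf q.out * t⁻¹ = ((wR (t • q).out ^ kf t : R) : G)
        rw [prop2, coe_zpow]
        congr 1
        obtain ⟨a, ha⟩ := QuotientGroup.mk_out_eq_mul (P : Subgroup G) (t * q.out)
        have e3 : ((t * q.out : G) : G ⧸ (P : Subgroup G)) = t • q := by
          conv_rhs => rw [← QuotientGroup.out_eq' q]
          rfl
        rw [e3] at ha
        show wf (t * q.out) = wf (t • q).out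
        rw [ha, prop1 _ _ a.2]
      rw [hYR, map_prod, Finset.prod_congr rfl (fun q _ => e2 q), Finset.prod_zpow]
      congr 1
      exact Equiv.prod_comp (MulAction.toPerm t) (fun q : G ⧸ (P : Subgroup G) => wR q.out)
    have e4 := congrArg Subtype.val e1
    rw [MulAut.conjNormal_apply] at e4
    exact e4
  have hYn : (zpowers Y).Normal := by
    refine ⟨?_⟩
    rintro _ ⟨i, rfl⟩ t
    refine mem_zpowers_iff.2 ⟨kf t * i, ?_⟩
    simp only
    rw [← conj_zpow, hYconj, zpow_mul]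
  have hYN : Y ∉ N := by
    intro hYN
    have h1 : YR / (⟨y, hyR⟩ : R) ^ Fintype.card (G ⧸ (P : Subgroup G)) ∈ N.subgroupOf R := by
      rw [hYR, ← Finset.card_univ, ← Finset.prod_const, ← Finset.prod_div_distrib]
      apply prod_mem
      intro q _
      rw [mem_subgroupOf, div_eq_mul_inv]
      exact hwf2 _
    have h2 : YR ∈ N.subgroupOf R := hYN
    have h3 : (⟨y, hyR⟩ : R) ^ Fintype.card (G ⧸ (P : Subgroup G)) ∈ N.subgroupOf R := by
      have := mul_mem (inv_mem h1) h2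
      rwa [inv_div, div_mul_cancel] at this
    have h4 : y ^ (Fintype.card (G ⧸ (P : Subgroup G)) : ℤ) ∈ N := by
      rw [zpow_natCast]; exact h3
    have h5 := zN hyp hyN h4
    rw [zpow_natCast] at h5
    have h6 := orderOf_dvd_of_pow_eq_one h5
    rw [hyo, ← Nat.card_eq_fintype_card] at h6
    exact P.not_dvd_index h6
  have hYp : Y ^ p = 1 := hRp Y hYR'
  apply no_two h hYn hN ?_ hNb
  · rw [eq_bot_iff]
    rintro _ ⟨⟨i, rfl⟩, hi2⟩
    exact mem_bot.2 (zN hYp hYN hi2)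
  · rw [Ne, zpowers_eq_bot]
    rintro e
    exact hYN (by rw [e]; exact N.one_mem)

theorem R_comm : ∀ x ∈ pCore p G, ∀ y ∈ pCore p G, x * y = y * x := by
  have hRn : (pCore p G).Normal := H1.Nilp.pCore_normal p
  have hRP : pCore p G ≤ (P : Subgroup G) := le_sylow_of_normal P hRn (H1.Nilp.pCore_isPGroup p)
  have h1 : ⁅pCore p G, pCore p G⁆ = ⊥ := by
    by_contra hb
    apply not_le h (commutator_normal _ _) hb
    refine inf_le_left.trans ((commutator_mono hRP hRP).trans ?_)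
    rw [← map_subtype_commutator]
    exact map_mono (commutator_le_frattini P.isPGroup')
  intro x hx y hy
  have h2 := commutator_mem_commutator hx hy
  rw [h1, mem_bot, commutatorElement_eq_one_iff_mul_comm] at h2
  exact h2

theorem R_pow : ∀ x ∈ pCore p G, x ^ p = 1 := by
  have hRn : (pCore p G).Normal := H1.Nilp.pCore_normal p
  have hRP : pCore p G ≤ (P : Subgroup G) := le_sylow_of_normal P hRn (H1.Nilp.pCore_isPGroup p)
  have hRc := R_comm h
  let S : Subgroup G :=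
    { carrier := {z | ∃ x ∈ pCore p G, x ^ p = z}
      one_mem' := ⟨1, one_mem _, one_pow p⟩
      mul_mem' := by
        rintro _ _ ⟨x, hx, rfl⟩ ⟨y, hy, rfl⟩
        exact ⟨x * y, mul_mem hx hy, (show Commute x y from hRc x hx y hy).mul_pow p⟩
      inv_mem' := by
        rintro _ ⟨x, hx, rfl⟩
        exact ⟨x⁻¹, inv_mem hx, inv_pow x p⟩ }
  have hS : S.Normal := by
    refine ⟨?_⟩
    rintro _ ⟨x, hx, rfl⟩ g
    exact ⟨g * x * g⁻¹, hRn.conj_mem x hx g, conj_pow⟩
  have hSb : S = ⊥ := by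
    by_contra hb
    apply not_le h hS hb
    rintro _ ⟨⟨x, hx, rfl⟩, -⟩
    exact ⟨⟨x, hRP hx⟩ ^ p, pow_mem_frattini P.isPGroup' _, rfl⟩
  intro x hx
  have : x ^ p ∈ S := ⟨x, hx, rfl⟩
  rwa [hSb, mem_bot] at this

/-- every nontrivial normal subgroup contains `O_p(G)` -/
theorem R_le {K : Subgroup G} (hK : K.Normal) (hKb : K ≠ ⊥) : pCore p G ≤ K := by
  have hRn : (pCore p G).Normal := H1.Nilp.pCore_normal p
  by_cases hRb : pCore p G = ⊥
  · rw [hRb]; exact bot_le
  have hRP : pCore p G ≤ (P : Subgroup G) := le_sylow_of_normal P hRn (H1.Nilp.pCore_isPGroup p)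
  have h1 := no_two h hK hRn hKb hRb
  have h2 := B1 h hRn hRP (R_comm h) (R_pow h) (N := K ⊓ pCore p G) inferInstance h1 inf_le_right
  rw [← h2]; exact inf_le_left

theorem fit_eq : fittingSubgroup G = pCore p G := H11.Bal.fitting_eq_pCore p h.core

theorem layer_bot (hRb : pCore p G ≠ ⊥) : layer G = ⊥ := by
  classical
  by_contra hEb
  have hRn : (pCore p G).Normal := H1.Nilp.pCore_normal p
  have hEn : (layer G).Normal := inferInstance
  have hRP : pCore p G ≤ (P : Subgroup G) := le_sylow_of_normal P hRn (H1.Nilp.pCore_isPGroup p)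
  have hRE := R_le h hEn hEb
  have hcom : ∀ e ∈ layer G, ∀ r ∈ pCore p G, e * r = r * e := by
    intro e he r hr
    have h1 := H11.Components.commutator_layer_fitting (G := G)
    have h2 : r ∈ fittingSubgroup G := by rw [fit_eq h]; exact hr
    have h3 := commutator_mem_commutator he h2
    rw [h1, mem_bot, commutatorElement_eq_one_iff_mul_comm] at h3
    exact h3
  obtain ⟨x, hxP, hx⟩ := cyc_mem h (D := pCore p G) (by rw [normalizer_eq_top]; exact le_top) (not_le h hRn hRb)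
  have hSyl : H13.Syl.IsSylIn p (P : Subgroup G) ⊤ :=
    ⟨le_top, P.isPGroup', by rw [relIndex_top_right]; exact P.not_dvd_index⟩
  have hSylE := hSyl.inf_of_le_normalizer (N := layer G) le_top (by rw [normalizer_eq_top])
  obtain ⟨S₀, hS₀⟩ := hSylE.exists_sylow
  have hmem : ∀ a : layer G, a ∈ S₀ ↔ (a : G) ∈ (P : Subgroup G) := by
    intro a
    have : a ∈ S₀ ↔ a ∈ (S₀ : Subgroup ↥(layer G)) := Iff.rfl
    rw [this, hS₀, mem_subgroupOf]
    exact ⟨fun h => h.1, fun h => ⟨h, a.2⟩⟩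
  have : Fintype ↥(layer G) := Fintype.ofFinite _
  apply hRb
  rw [eq_bot_iff]
  intro z hz
  have h1 := H3.SmallRep.inf_center_commutator S₀ (z := ⟨z, hRE hz⟩) (by
      intro a ha b hb
      apply Subtype.ext
      show (a : G) * b = b * a
      obtain ⟨n, hn, k, hk⟩ := hx a ((hmem a).1 ha)
      obtain ⟨m, hm, l, hl⟩ := hx b ((hmem b).1 hb)
      have hxk : x ^ k ∈ layer G := by
        have : x ^ k = n⁻¹ * a := by rw [hk]; group
        rw [this]; exact mul_mem (inv_mem (hRE hn)) a.2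
      have hxl : x ^ l ∈ layer G := by
        have : x ^ l = m⁻¹ * b := by rw [hl]; group
        rw [this]; exact mul_mem (inv_mem (hRE hm)) b.2
      rw [hk, hl]
      calc n * x ^ k * (m * x ^ l) = n * (x ^ k * m) * x ^ l := by group
        _ = n * (m * x ^ k) * x ^ l := by rw [hcom _ hxk m hm]
        _ = (n * m) * (x ^ k * x ^ l) := by group
        _ = (m * n) * (x ^ l * x ^ k) := by
            rw [R_comm h n hn m hm, ← zpow_add, ← zpow_add, add_comm]
        _ = m * (n * x ^ l) * x ^ k := by group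
        _ = m * (x ^ l * n) * x ^ k := by rw [hcom _ hxl n hn]
        _ = m * x ^ l * (n * x ^ k) := by group)
    ((hmem _).2 (hRP hz)) (by
      rw [mem_center_iff]
      intro g
      exact Subtype.ext (hcom g g.2 z hz)) (by
      have hperf : commutator ↥(layer G) = ⊤ := by
        have := H11.Components.layer_isPerfect (G := G)
        exact this.commutator_eq_top
      rw [hperf]; trivial)
  exact mem_bot.2 (congrArg Subtype.val h1)

end

end Cfsg.Agent.H12.TP
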