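import Cfsg.Statements.S1018
import Mathlib
import Cfsg.Agent.H9_Small3

set_option autoImplicit false
open Cfsg

open scoped Pointwise

namespace Cfsg.Agent.S1018

theorem fix_iff {G : Type*} [Group G] (N : Subgroup G) (y g : G) : y • (g : G ⧸ N) = g ↔ g⁻¹ * y * g ∈ N := by
  change ((y * g : G) : G ⧸ N) = g ↔ _
  rw [eq_comm, QuotientGroup.eq, mul_assoc]

/-- the elements of order `p` of `N(P)` lie in `P` -/
theorem mem_of_order {G : Type*} [Group G] [Finite G] {p : ℕ} [Fact p.Prime] (P : Sylow p G) (y : G)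
    (hy : orderOf y = p) (hyN : y ∈ Subgroup.normalizer ((P : Subgroup G) : Set G)) : y ∈ (P : Subgroup G) := by
  have h1 : IsPGroup p (Subgroup.zpowers y) := IsPGroup.of_card (n := 1) (by rw [Nat.card_zpowers, hy, pow_one])
  have h2 := h1.inf_normalizer_sylow P
  have h3 : y ∈ Subgroup.zpowers y ⊓ Subgroup.normalizer (P : Set G) := ⟨Subgroup.mem_zpowers y, hyN⟩
  rw [h2] at h3
  exact h3.2

/-- Let P be a Sylow p-subgroup of order p of a finite group G, and consider the action of G on the left cosets of the normalizer N of P. Then every element of order p fixes exactly one coset, and an element of N that does not centralize P fixes at most as many cosets as there are orbits of P. -/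
theorem result {G : Type*} [Group G] [Finite G] (p : ℕ) [Fact p.Prime] (P : Sylow p G) (hP : Nat.card ↥(P : Subgroup G) = p) : (∀ y : G, orderOf y = p → Nat.card (MulAction.fixedBy (G ⧸ Subgroup.normalizer ((P : Subgroup G) : Set G)) y) = 1) ∧ ∀ x : G, x ∈ Subgroup.normalizer ((P : Subgroup G) : Set G) → x ∉ Subgroup.centralizer ((P : Subgroup G) : Set G) → Nat.card (MulAction.fixedBy (G ⧸ Subgroup.normalizer ((P : Subgroup G) : Set G)) x) ≤ Nat.card (MulAction.orbitRel.Quotient ↥(P : Subgroup G) (G ⧸ Subgroup.normalizer ((P : Subgroup G) : Set G))) := by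
  classical
  have hp : p.Prime := Fact.out
  set N := Subgroup.normalizer ((P : Subgroup G) : Set G) with hN
  have part1 : ∀ y : G, orderOf y = p → Nat.card (MulAction.fixedBy (G ⧸ N) y) = 1 := by
    intro y hy
    rw [Nat.card_eq_one_iff_unique]
    constructor
    · refine ⟨?_⟩
      rintro ⟨q1, h1⟩ ⟨q2, h2⟩
      obtain ⟨g1, rfl⟩ := QuotientGroup.mk_surjective q1
      obtain ⟨g2, rfl⟩ := QuotientGroup.mk_surjective q2
      apply Subtype.ext
      rw [MulAction.mem_fixedBy, fix_iff] at h1 h2
      -- both conjugates of y lie in P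
      have e1 : orderOf (g1⁻¹ * y * g1) = p := by
        have := MulEquiv.orderOf_eq (MulAut.conj g1⁻¹) y
        rw [MulAut.conj_apply, inv_inv] at this
        rw [this, hy]
      have e2 : orderOf (g2⁻¹ * y * g2) = p := by
        have := MulEquiv.orderOf_eq (MulAut.conj g2⁻¹) y
        rw [MulAut.conj_apply, inv_inv] at this
        rw [this, hy]
      have m1 := mem_of_order P _ e1 h1
      have m2 := mem_of_order P _ e2 h2
      -- so zpowers y is g1 P g1⁻¹ and g2 P g2⁻¹
      have z1 : Subgroup.zpowers (g1⁻¹ * y * g1) = (P : Subgroup G) :=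
        Subgroup.eq_of_le_of_card_ge (Subgroup.zpowers_le.2 m1) (by rw [hP, Nat.card_zpowers, e1])
      have z2 : Subgroup.zpowers (g2⁻¹ * y * g2) = (P : Subgroup G) :=
        Subgroup.eq_of_le_of_card_ge (Subgroup.zpowers_le.2 m2) (by rw [hP, Nat.card_zpowers, e2])
      change ((g1 : G) : G ⧸ N) = ((g2 : G) : G ⧸ N)
      rw [QuotientGroup.eq, hN, Subgroup.mem_normalizer_iff]
      have key : ∀ x, x ∈ (P : Subgroup G) → (g1⁻¹ * g2) * x * (g1⁻¹ * g2)⁻¹ ∈ (P : Subgroup G) := by
        intro x hx
        rw [← z2] at hx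
        obtain ⟨k, hk⟩ := Subgroup.mem_zpowers_iff.1 hx
        rw [← z1]
        rw [Subgroup.mem_zpowers_iff]
        refine ⟨k, ?_⟩
        rw [← hk]
        have f1 : (g1⁻¹ * y * g1) ^ k = g1⁻¹ * y ^ k * g1 := by
          have := (MulAut.conj g1⁻¹).toMonoidHom.map_zpow y k
          simpa [MulAut.conj_apply] using this.symm
        have f2 : (g2⁻¹ * y * g2) ^ k = g2⁻¹ * y ^ k * g2 := by
          have := (MulAut.conj g2⁻¹).toMonoidHom.map_zpow y k
          simpa [MulAut.conj_apply] using this.symm
        rw [f1, f2]; group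
      have key2 : ∀ x, x ∈ (P : Subgroup G) → (g1⁻¹ * g2)⁻¹ * x * (g1⁻¹ * g2) ∈ (P : Subgroup G) := by
        intro x hx
        rw [← z1] at hx
        obtain ⟨k, hk⟩ := Subgroup.mem_zpowers_iff.1 hx
        rw [← z2]
        rw [Subgroup.mem_zpowers_iff]
        refine ⟨k, ?_⟩
        rw [← hk]
        have f1 : (g1⁻¹ * y * g1) ^ k = g1⁻¹ * y ^ k * g1 := by
          have := (MulAut.conj g1⁻¹).toMonoidHom.map_zpow y k
          simpa [MulAut.conj_apply] using this.symm
        have f2 : (g2⁻¹ * y * g2) ^ k = g2⁻¹ * y ^ k * g2 := by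
          have := (MulAut.conj g2⁻¹).toMonoidHom.map_zpow y k
          simpa [MulAut.conj_apply] using this.symm
        rw [f1, f2]; group
      intro x
      constructor
      · exact key x
      · intro hx
        have := key2 _ hx
        have h5 : (g1⁻¹ * g2)⁻¹ * (g1⁻¹ * g2 * x * (g1⁻¹ * g2)⁻¹) * (g1⁻¹ * g2) = x := by group
        rw [h5] at this
        exact this
    · -- existence
      let S : Sylow p G := Sylow.ofCard (Subgroup.zpowers y) (by
        rw [Nat.card_zpowers, hy, ← P.card_eq_multiplicity, hP])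
      obtain ⟨g, hg⟩ := MulAction.exists_smul_eq G P S
      refine ⟨⟨(g : G ⧸ N), ?_⟩⟩
      rw [MulAction.mem_fixedBy, fix_iff]
      apply Subgroup.le_normalizer
      have h1 : y ∈ (S : Subgroup G) := Subgroup.mem_zpowers y
      rw [← hg] at h1
      have h2 : y ∈ (MulAut.conj g • (P : Subgroup G)) := h1
      rw [Subgroup.mem_pointwise_smul_iff_inv_smul_mem] at h2
      have h3 : ((MulAut.conj g)⁻¹ • y) = g⁻¹ * y * g := by
        simp [MulAut.smul_def]
      rwa [h3] at h2
  refine ⟨part1, ?_⟩
  intro x hxN hxC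
  -- the map from fixed points to orbits is injective
  apply Nat.card_le_card_of_injective (fun q : MulAction.fixedBy (G ⧸ N) x =>
    (Quotient.mk'' (q : G ⧸ N) : MulAction.orbitRel.Quotient (P : Subgroup G) (G ⧸ N)))
  rintro ⟨a, ha⟩ ⟨b, hb⟩ hab
  apply Subtype.ext
  have hab' : a ∈ MulAction.orbit (P : Subgroup G) b := Quotient.exact' hab
  obtain ⟨u, hu⟩ := hab'
  change (u : G) • b = a at hu
  rw [MulAction.mem_fixedBy] at ha hb
  change a = b
  -- x u x⁻¹ and u agree on b
  set v : G := (u : G)⁻¹ * (x * u * x⁻¹) with hv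
  have hxu : x * u * x⁻¹ ∈ (P : Subgroup G) := (Subgroup.mem_normalizer_iff.1 hxN u).1 u.2
  have hvP : v ∈ (P : Subgroup G) := (P : Subgroup G).mul_mem ((P : Subgroup G).inv_mem u.2) hxu
  have hxinv : x⁻¹ • b = b := by rw [inv_smul_eq_iff, hb]
  have hvb : v • b = b := by
    rw [hv, mul_smul, inv_smul_eq_iff, mul_smul, mul_smul, hxinv, hu, ha]
  have hva : v • a = a := by
    letI : IsCyclic (P : Subgroup G) := isCyclic_of_prime_card hP
    letI := IsCyclic.commGroup (α := (P : Subgroup G))
    have hcm : v * u = u * v := congrArg Subtype.val (mul_comm (⟨v, hvP⟩ : (P : Subgroup G)) u)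
    rw [← hu, ← mul_smul, hcm, mul_smul, hvb]
  by_cases hv1 : v = 1
  · -- u commutes with x
    have hux : x * u = u * x := by
      have h1 : x * u * x⁻¹ = u := by
        rw [hv] at hv1
        exact (inv_mul_eq_one.1 hv1).symm
      calc x * u = (x * u * x⁻¹) * x := by group
        _ = u * x := by rw [h1]
    by_cases hu1 : (u : G) = 1
    · rw [← hu, hu1, one_smul]
    · exfalso
      apply hxC
      rw [Subgroup.mem_centralizer_iff]
      intro w hw
      have hou : orderOf u = p := by
        have h1 : orderOf u ∣ p := by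
          have h0 := orderOf_dvd_natCard u
          rwa [hP] at h0
        rcases (Nat.dvd_prime hp).1 h1 with h2 | h2
        · rw [orderOf_eq_one_iff] at h2
          exact absurd (congrArg Subtype.val h2) hu1
        · exact h2
      have htop : Subgroup.zpowers u = ⊤ := Subgroup.eq_top_of_card_eq _ (by rw [Nat.card_zpowers, hou, hP])
      obtain ⟨k, hk⟩ : (⟨w, hw⟩ : (P : Subgroup G)) ∈ Subgroup.zpowers u := by rw [htop]; trivial
      have hk' : (u : G) ^ k = w := congrArg Subtype.val hk
      rw [← hk']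
      exact ((show Commute x (u : G) from hux).zpow_right k).symm.eq
  · -- v has order p and fixes both
    have hov : orderOf v = p := by
      have h1 : orderOf (⟨v, hvP⟩ : (P : Subgroup G)) ∣ p := by
        have h0 := orderOf_dvd_natCard (⟨v, hvP⟩ : (P : Subgroup G))
        rwa [hP] at h0
      rw [← Subgroup.orderOf_coe] at h1
      rcases (Nat.dvd_prime hp).1 h1 with h2 | h2
      · exact absurd (orderOf_eq_one_iff.1 h2) hv1
      · exact h2
    have h1 := (Nat.card_eq_one_iff_unique.1 (part1 v hov)).1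
    exact congrArg Subtype.val (h1.elim (⟨a, hva⟩ : MulAction.fixedBy (G ⧸ N) v) ⟨b, hvb⟩)

end Cfsg.Agent.S1018
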