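import Cfsg.Statements.S1019
import Mathlib

set_option autoImplicit false
open Cfsg

namespace Cfsg.Agent.S1019

/-- Let H be a subgroup of a finite group G and x an element of H. In the action of G on the left cosets of H, the number of cosets fixed by x, multiplied by the size of the conjugacy class of x, equals the index of H multiplied by the number of conjugates of x that lie in H. -/
theorem result {G : Type*} [Group G] [Finite G] (H : Subgroup G) (x : G) (hx : x ∈ H) : Nat.card (MulAction.fixedBy (G ⧸ H) x) * Nat.card {g : G // IsConj x g} = H.index * Nat.card {g : G // IsConj x g ∧ g ∈ H} := by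
  classical
  letI : Fintype {g : G // IsConj x g} := Fintype.ofFinite _
  letI : Fintype (G ⧸ H) := Fintype.ofFinite _
  have h1 : ∀ y : {g : G // IsConj x g}, Nat.card (MulAction.fixedBy (G ⧸ H) (y : G)) = Nat.card (MulAction.fixedBy (G ⧸ H) x) := by
    rintro ⟨y, hy⟩
    obtain ⟨c, rfl⟩ := isConj_iff.1 hy
    apply Nat.card_congr
    refine ⟨fun q => ⟨c⁻¹ • (q : G ⧸ H), ?_⟩, fun q => ⟨c • (q : G ⧸ H), ?_⟩, ?_, ?_⟩
    · have hq := q.2
      change (c * x * c⁻¹) • (q : G ⧸ H) = q at hq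
      change x • c⁻¹ • (q : G ⧸ H) = c⁻¹ • (q : G ⧸ H)
      rw [mul_smul, mul_smul] at hq
      rw [eq_inv_smul_iff]; exact hq
    · have hq := q.2
      change x • (q : G ⧸ H) = q at hq
      change (c * x * c⁻¹) • c • (q : G ⧸ H) = c • (q : G ⧸ H)
      rw [mul_smul, mul_smul, inv_smul_smul, hq]
    · intro q; apply Subtype.ext; exact smul_inv_smul c _
    · intro q; apply Subtype.ext; exact inv_smul_smul c _
  have h2 : ∀ q : G ⧸ H, Nat.card {y : {g : G // IsConj x g} // (y : G) • q = q} = Nat.card {g : G // IsConj x g ∧ g ∈ H} := by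
    intro q
    obtain ⟨g, rfl⟩ := QuotientGroup.mk_surjective q
    apply Nat.card_congr
    have key : ∀ y : G, y • (g : G ⧸ H) = g ↔ g⁻¹ * y * g ∈ H := by
      intro y
      change ((y * g : G) : G ⧸ H) = g ↔ _
      rw [eq_comm, QuotientGroup.eq, mul_assoc]
    refine ⟨fun y => ⟨g⁻¹ * (y : {g : G // IsConj x g}) * g, ?_, ?_⟩, fun y => ⟨⟨g * y * g⁻¹, ?_⟩, ?_⟩, ?_, ?_⟩
    · refine y.1.2.trans ?_
      exact isConj_iff.2 ⟨g⁻¹, by simp⟩
    · exact (key _).1 y.2
    · refine y.2.1.trans ?_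
      exact isConj_iff.2 ⟨g, rfl⟩
    · rw [key]
      simpa [mul_assoc] using y.2.2
    · intro y; apply Subtype.ext; apply Subtype.ext; simp [mul_assoc]
    · intro y; apply Subtype.ext; simp [mul_assoc]
  have e : (Σ y : {g : G // IsConj x g}, MulAction.fixedBy (G ⧸ H) (y : G)) ≃
      (Σ q : G ⧸ H, {y : {g : G // IsConj x g} // (y : G) • q = q}) :=
    ⟨fun z => ⟨z.2.1, ⟨z.1, z.2.2⟩⟩, fun z => ⟨z.2.1, ⟨z.1, z.2.2⟩⟩, fun _ => rfl, fun _ => rfl⟩
  have h3 := Nat.card_congr e
  rw [Nat.card_sigma, Nat.card_sigma] at h3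
  simp only [h1, h2, Finset.sum_const, Finset.card_univ, smul_eq_mul] at h3
  rw [← Nat.card_eq_fintype_card, ← Nat.card_eq_fintype_card] at h3
  rw [mul_comm]
  exact h3

end Cfsg.Agent.S1019
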