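import Mathlib
import Cfsg.Agent.H9_Small
import Cfsg.Agent.S1018
import Cfsg.Agent.S1019
import Cfsg.Agent.H9_CountP

/-!
# Counting fixed points: tools for excluding orders of simple groups
-/

set_option autoImplicit false

open Cfsg

namespace Cfsg.Agent.H13.Cnt

open Subgroup

theorem card_fix {α : Type*} [Fintype α] [DecidableEq α] (σ : Equiv.Perm α) :
    Nat.card {a // σ a = a} = σ.supportᶜ.card := by
  rw [Nat.card_eq_fintype_card, Fintype.card_subtype]
  congr 1
  ext a
  simp

theorem mod_fix {α : Type*} [Finite α] (σ : Equiv.Perm α) (p n : ℕ) [hp : Fact p.Prime] (h : σ ^ (p ^ n) = 1) :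
    Nat.card α ≡ Nat.card {a // σ a = a} [MOD p] := by
  classical
  let _ := Fintype.ofFinite α
  have h1 := Equiv.Perm.card_compl_support_modEq h
  rw [card_fix, Nat.card_eq_fintype_card]
  exact h1.symm

/-- an even involution moves a multiple of four points -/
theorem sign4 {α : Type*} [Fintype α] [DecidableEq α] (σ : Equiv.Perm α) (h2 : σ ^ 2 = 1)
    (hs : Equiv.Perm.sign σ = 1) : ∃ k, Nat.card α = Nat.card {a // σ a = a} + 4 * k := by
  have h3 := Equiv.Perm.sign_of_pow_two_eq_one h2
  rw [hs] at h3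
  have hfix : Fintype.card (Function.fixedPoints σ) = Nat.card {a // σ a = a} := by
    rw [← Nat.card_eq_fintype_card]
    exact Nat.card_congr (Equiv.refl _)
  rw [hfix, ← Nat.card_eq_fintype_card] at h3
  have hle : Nat.card {a // σ a = a} ≤ Nat.card α := Nat.card_le_card_of_injective _ Subtype.val_injective
  have heven : 2 ∣ Nat.card α - Nat.card {a // σ a = a} :=
    (Nat.modEq_iff_dvd' hle).1 (mod_fix σ 2 1 (by rw [pow_one]; exact h2)).symm
  obtain ⟨m, hm⟩ := heven
  rw [hm, Nat.mul_div_cancel_left _ two_pos] at h3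
  have hme : Even m := by
    rcases Nat.even_or_odd m with h | h
    · exact h
    · rw [h.neg_one_pow] at h3
      exact absurd h3 (by decide)
  obtain ⟨k, hk⟩ := hme
  exact ⟨k, by omega⟩

variable {G : Type*} [Group G] [Finite G]

theorem even_action [IsSimpleGroup G] (hG : ¬ IsMulCommutative G) {α : Type*} [Fintype α] [DecidableEq α]
    (φ : G →* Equiv.Perm α) (x : G) : Equiv.Perm.sign (φ x) = 1 :=
  Equiv.Perm.mem_alternatingGroup.1 (H9.Small.range_le_alternating hG φ ⟨x, rfl⟩)

/-- an involution moves a multiple of four points in any action -/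
theorem act_sign [IsSimpleGroup G] (hG : ¬ IsMulCommutative G) {α : Type*} [Finite α]
    (φ : G →* Equiv.Perm α) (t : G) (ht : t ^ 2 = 1) : ∃ k, Nat.card α = Nat.card {a // φ t a = a} + 4 * k := by
  classical
  let _ := Fintype.ofFinite α
  exact sign4 (φ t) (by rw [← map_pow, ht, map_one]) (even_action hG φ t)

theorem coset_sign [IsSimpleGroup G] (hG : ¬ IsMulCommutative G) (H : Subgroup G) (t : G) (ht : t ^ 2 = 1) :
    ∃ k, H.index = Nat.card (MulAction.fixedBy (G ⧸ H) t) + 4 * k := by
  have := act_sign hG (MulAction.toPermHom G (G ⧸ H)) t ht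
  exact this

theorem coset_mod (H : Subgroup G) (p n : ℕ) [hp : Fact p.Prime] (x : G) (hx : x ^ (p ^ n) = 1) :
    H.index ≡ Nat.card (MulAction.fixedBy (G ⧸ H) x) [MOD p] :=
  mod_fix (MulAction.toPermHom G (G ⧸ H) x) p n (by rw [← map_pow, hx, map_one])

/-- commuting elements -/
theorem coset_mod2 (H : Subgroup G) (p n : ℕ) [hp : Fact p.Prime] (x u : G) (hxu : x * u = u * x)
    (hu : u ^ (p ^ n) = 1) :
    Nat.card (MulAction.fixedBy (G ⧸ H) x) ≡ Nat.card {q : G ⧸ H // x • q = q ∧ u • q = q} [MOD p] := by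
  have key : ∀ q : G ⧸ H, x • q = q ↔ x • (u • q) = u • q := by
    intro q
    rw [← mul_smul, hxu, mul_smul]
    exact (smul_left_cancel_iff u).symm
  let σ : Equiv.Perm (MulAction.fixedBy (G ⧸ H) x) :=
    (MulAction.toPermHom G (G ⧸ H) u).subtypePerm (fun q => (key q).symm)
  have hσ : ∀ (k : ℕ) (q : MulAction.fixedBy (G ⧸ H) x), (((σ ^ k) q : MulAction.fixedBy (G ⧸ H) x) : G ⧸ H) = u ^ k • (q : G ⧸ H) := by
    intro k
    induction k with
    | zero => intro q; simp
    | succ k ih =>
      intro q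
      rw [pow_succ, Equiv.Perm.mul_apply, ih, pow_succ, mul_smul]
      rfl
  have h1 := mod_fix σ p n (by
    ext q
    rw [hσ, hu, one_smul]; rfl)
  have h2 : Nat.card {a // σ a = a} = Nat.card {q : G ⧸ H // x • q = q ∧ u • q = q} := by
    apply Nat.card_congr
    refine ⟨fun q => ⟨q.1.1, q.1.2, ?_⟩, fun q => ⟨⟨q.1, q.2.1⟩, ?_⟩, fun _ => rfl, fun _ => rfl⟩
    · exact congrArg Subtype.val q.2
    · exact Subtype.ext q.2.2
  rw [h2] at h1
  exact h1

/-- faithfulness -/
theorem lt_index [IsSimpleGroup G] (H : Subgroup G) (hH : H ≠ ⊤) (x : G) (hx : x ≠ 1) :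
    Nat.card (MulAction.fixedBy (G ⧸ H) x) < H.index := by
  have hle : Nat.card (MulAction.fixedBy (G ⧸ H) x) ≤ H.index :=
    Nat.card_le_card_of_injective _ Subtype.val_injective
  apply lt_of_le_of_ne hle
  intro h
  have h1 : ∀ q : G ⧸ H, x • q = q := by
    intro q
    by_contra hq
    have h2 : Function.Injective (fun o : Option (MulAction.fixedBy (G ⧸ H) x) => (o.elim q Subtype.val : G ⧸ H)) := by
      rintro (_ | ⟨a, ha⟩) (_ | ⟨b, hb⟩) hab
      · rfl
      · simp only [Option.elim] at hab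
        subst hab
        exact absurd hb hq
      · simp only [Option.elim] at hab
        subst hab
        exact absurd ha hq
      · simp only [Option.elim] at hab
        subst hab
        rfl
    have h3 := Nat.card_le_card_of_injective _ h2
    rw [Finite.card_option, h] at h3
    have : Nat.card (G ⧸ H) = H.index := rfl
    omega
  have h4 : x ∈ (MulAction.toPermHom G (G ⧸ H)).ker := by
    rw [MonoidHom.mem_ker]
    ext q
    exact h1 q
  rcases (inferInstance : (MulAction.toPermHom G (G ⧸ H)).ker.Normal).eq_bot_or_eq_top with h5 | h5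
  · rw [h5] at h4
    exact hx (Subgroup.mem_bot.1 h4)
  · apply hH
    rw [eq_top_iff]
    intro y _
    have h6 : y ∈ (MulAction.toPermHom G (G ⧸ H)).ker := by rw [h5]; trivial
    rw [MonoidHom.mem_ker] at h6
    have h7 := congrArg (fun σ : Equiv.Perm (G ⧸ H) => σ ((1 : G) : G ⧸ H)) h6
    change ((y * 1 : G) : G ⧸ H) = ((1 : G) : G ⧸ H) at h7
    rw [eq_comm, QuotientGroup.eq] at h7
    simpa using h7

theorem card_cls (t : G) : Nat.card (centralizer ({t} : Set G)) * Nat.card {g : G // IsConj t g} = Nat.card G := by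
  have h1 := H9.CountP.card_carrier t
  rw [mul_comm] at h1
  rw [← h1]
  congr 1

/-- fixed points on cosets of a subgroup containing the element -/
theorem fix_card (H : Subgroup G) (x : G) (hx : x ∈ H) :
    Nat.card (MulAction.fixedBy (G ⧸ H) x) * Nat.card H =
      Nat.card (centralizer ({x} : Set G)) * Nat.card {g : G // IsConj x g ∧ g ∈ H} := by
  have h1 := S1019.result H x hx
  have h2 := card_cls x
  have h3 := Subgroup.card_mul_index H
  have h4 : 0 < H.index := Nat.pos_of_ne_zero Subgroup.index_ne_zero_of_finite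
  apply Nat.eq_of_mul_eq_mul_left h4
  calc H.index * (Nat.card (MulAction.fixedBy (G ⧸ H) x) * Nat.card H)
      = Nat.card (MulAction.fixedBy (G ⧸ H) x) * (Nat.card H * H.index) := by ring
    _ = Nat.card (centralizer ({x} : Set G)) * (Nat.card (MulAction.fixedBy (G ⧸ H) x) * Nat.card {g : G // IsConj x g}) := by
        rw [h3, ← h2]; ring
    _ = H.index * (Nat.card (centralizer ({x} : Set G)) * Nat.card {g : G // IsConj x g ∧ g ∈ H}) := by
        rw [h1]; ring

/-- if `8` divides the order then it divides the order of the centraliser of each involution -/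
theorem eight_dvd [IsSimpleGroup G] (hG : ¬ IsMulCommutative G) (h8 : 8 ∣ Nat.card G) (t : G) (ht : orderOf t = 2) :
    8 ∣ Nat.card (centralizer ({t} : Set G)) := by
  have ht2 : t ^ 2 = 1 := by rw [← ht]; exact pow_orderOf_eq_one t
  obtain ⟨k, hk⟩ := coset_sign hG (zpowers t) t ht2
  have h1 := fix_card (zpowers t) t (mem_zpowers t)
  have h2 : Nat.card {g : G // IsConj t g ∧ g ∈ zpowers t} = 1 := by
    rw [Nat.card_eq_one_iff_unique]
    refine ⟨⟨?_⟩, ⟨⟨t, IsConj.refl _, mem_zpowers t⟩⟩⟩
    have key : ∀ g : G, IsConj t g → g ∈ zpowers t → g = t := by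
      intro g hg hgz
      rw [mem_zpowers_iff] at hgz
      obtain ⟨j, hj⟩ := hgz
      have h3 : g ≠ 1 := by
        rintro rfl
        have := isConj_one_left.1 hg
        rw [this, orderOf_one] at ht
        omega
      rcases Int.even_or_odd' j with ⟨i, hi | hi⟩
      · exfalso; apply h3
        rw [← hj, hi, zpow_mul]
        have : t ^ (2 : ℤ) = 1 := by exact_mod_cast ht2
        rw [this, one_zpow]
      · rw [← hj, hi, zpow_add, zpow_mul, zpow_one]
        have : t ^ (2 : ℤ) = 1 := by exact_mod_cast ht2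
        rw [this, one_zpow, one_mul]
    rintro ⟨a, ha, ha'⟩ ⟨b, hb, hb'⟩
    apply Subtype.ext
    change a = b
    rw [key a ha ha', key b hb hb']
  rw [h2, Nat.card_zpowers, ht, mul_one] at h1
  have h4 := Subgroup.card_mul_index (zpowers t)
  rw [Nat.card_zpowers, ht] at h4
  omega

/-- the class of `t`, restricted to a set invariant under a `p`-element -/
theorem cls_mod (t u : G) (S : G → Prop) (p n : ℕ) [hp : Fact p.Prime] (hS : ∀ g, S g ↔ S (u * g * u⁻¹))
    (hu : u ^ (p ^ n) = 1) :
    Nat.card {g : G // IsConj t g ∧ S g} ≡ Nat.card {g : G // IsConj t g ∧ S g ∧ g * u = u * g} [MOD p] := by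
  have key : ∀ g : G, (IsConj t g ∧ S g) ↔ (IsConj t (MulAut.conj u g) ∧ S (MulAut.conj u g)) := by
    intro g
    rw [MulAut.conj_apply, ← hS g]
    constructor
    · rintro ⟨h1, h2⟩
      exact ⟨h1.trans (isConj_iff.2 ⟨u, rfl⟩), h2⟩
    · rintro ⟨h1, h2⟩
      exact ⟨h1.trans (isConj_iff.2 ⟨u⁻¹, by group⟩), h2⟩
  let σ : Equiv.Perm {g : G // IsConj t g ∧ S g} := Equiv.Perm.subtypePerm ((MulAut.conj u).toEquiv : Equiv.Perm G) (fun g => (key g).symm)
  have hσ : ∀ (k : ℕ) (q : {g : G // IsConj t g ∧ S g}), (((σ ^ k) q : {g : G // IsConj t g ∧ S g}) : G) = u ^ k * q * (u ^ k)⁻¹ := by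
    intro k
    induction k with
    | zero => intro q; simp
    | succ k ih =>
      intro q
      rw [pow_succ, Equiv.Perm.mul_apply, ih]
      change u ^ k * (u * q * u⁻¹) * (u ^ k)⁻¹ = _
      rw [pow_succ]; group
  have h1 := mod_fix σ p n (by
    ext q
    rw [hσ, hu]; simp)
  have h2 : Nat.card {a // σ a = a} = Nat.card {g : G // IsConj t g ∧ S g ∧ g * u = u * g} := by
    apply Nat.card_congr
    refine ⟨fun q => ⟨q.1.1, q.1.2.1, q.1.2.2, ?_⟩, fun q => ⟨⟨q.1, q.2.1, q.2.2.1⟩, ?_⟩, fun _ => rfl, fun _ => rfl⟩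
    · have h3 : u * (q.1 : G) * u⁻¹ = q.1 := congrArg Subtype.val q.2
      rw [mul_inv_eq_iff_eq_mul] at h3
      exact h3.symm
    · apply Subtype.ext
      change u * (q.1 : G) * u⁻¹ = q.1
      rw [mul_inv_eq_iff_eq_mul]
      exact q.2.2.2.symm
  rw [h2] at h1
  exact h1

/-- conjugation action on a class -/
theorem cls_sign [IsSimpleGroup G] (hG : ¬ IsMulCommutative G) (t s : G) (hs : s ^ 2 = 1) :
    ∃ k, Nat.card {g : G // IsConj t g} = Nat.card {g : G // IsConj t g ∧ g * s = s * g} + 4 * k := by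
  have key : ∀ x g : G, IsConj t g ↔ IsConj t (MulAut.conj x g) := by
    intro x g
    rw [MulAut.conj_apply]
    constructor
    · intro h1
      exact h1.trans (isConj_iff.2 ⟨x, rfl⟩)
    · intro h1
      exact h1.trans (isConj_iff.2 ⟨x⁻¹, by group⟩)
  let φ : G →* Equiv.Perm {g : G // IsConj t g} :=
    { toFun := fun x => Equiv.Perm.subtypePerm ((MulAut.conj x).toEquiv : Equiv.Perm G) (fun g => (key x g).symm)
      map_one' := by ext g; simp
      map_mul' := by
        intro x y; ext g
        change (x * y) * (g : G) * (x * y)⁻¹ = x * (y * g * y⁻¹) * x⁻¹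
        group }
  obtain ⟨k, hk⟩ := act_sign hG φ s hs
  refine ⟨k, ?_⟩
  rw [hk]
  congr 1
  apply Nat.card_congr
  refine ⟨fun q => ⟨q.1.1, q.1.2, ?_⟩, fun q => ⟨⟨q.1, q.2.1⟩, ?_⟩, fun _ => rfl, fun _ => rfl⟩
  · have h3 : s * (q.1 : G) * s⁻¹ = q.1 := congrArg Subtype.val q.2
    rw [mul_inv_eq_iff_eq_mul] at h3
    exact h3.symm
  · apply Subtype.ext
    change s * (q.1 : G) * s⁻¹ = q.1
    rw [mul_inv_eq_iff_eq_mul]
    exact q.2.2.symm

theorem fx_conj (H : Subgroup G) (x y : G) (h : IsConj x y) :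
    Nat.card (MulAction.fixedBy (G ⧸ H) x) = Nat.card (MulAction.fixedBy (G ⧸ H) y) := by
  obtain ⟨c, rfl⟩ := isConj_iff.1 h
  symm
  apply Nat.card_congr
  refine ⟨fun q => ⟨c⁻¹ • (q : G ⧸ H), ?_⟩, fun q => ⟨c • (q : G ⧸ H), ?_⟩, ?_, ?_⟩
  · have hq := q.2
    change (c * x * c⁻¹) • (q : G ⧸ H) = q at hq
    change x • c⁻¹ • (q : G ⧸ H) = c⁻¹ • (q : G ⧸ H)
    rw [mul_smul, mul_smul] at hq
    rw [eq_inv_smul_iff]; exact hq
  · have hq := q.2
    change x • (q : G ⧸ H) = q at hq
    change (c * x * c⁻¹) • c • (q : G ⧸ H) = c • (q : G ⧸ H)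
    rw [mul_smul, mul_smul, inv_smul_smul, hq]
  · intro q; apply Subtype.ext; exact smul_inv_smul c _
  · intro q; apply Subtype.ext; exact inv_smul_smul c _

section syl

variable {p : ℕ} [hp : Fact p.Prime] (P : Sylow p G) (hP : Nat.card (P : Subgroup G) = p)

include hP in
theorem gen : ∃ u : G, orderOf u = p ∧ (P : Subgroup G) = zpowers u ∧
    ∀ x : G, x ∈ centralizer ((P : Subgroup G) : Set G) ↔ x * u = u * x := by
  have h1 : ∃ u : (P : Subgroup G), u ≠ 1 := by
    have : Nontrivial (P : Subgroup G) := Finite.one_lt_card_iff_nontrivial.1 (by rw [hP]; exact hp.out.one_lt)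
    exact exists_ne 1
  obtain ⟨u, hu⟩ := h1
  have hou : orderOf (u : G) = p := by
    have h2 := Subgroup.orderOf_dvd_natCard _ u.2
    rw [hP] at h2
    rcases (Nat.dvd_prime hp.out).1 h2 with h3 | h3
    · exact absurd (Subtype.ext (orderOf_eq_one_iff.1 h3)) hu
    · exact h3
  have hz : (P : Subgroup G) = zpowers (u : G) := by
    symm
    apply Subgroup.eq_of_le_of_card_ge (zpowers_le.2 u.2)
    rw [hP, Nat.card_zpowers, hou]
  refine ⟨u, hou, hz, ?_⟩
  intro x
  rw [Subgroup.mem_centralizer_iff]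
  constructor
  · intro h
    exact (h u u.2).symm
  · intro h y hy
    rw [hz] at hy
    obtain ⟨k, rfl⟩ := mem_zpowers_iff.1 hy
    have h2 : Commute x (u : G) := h
    exact (h2.zpow_right k).symm

include hP in
theorem syl_mod (x : G) (hx : x ∈ centralizer ((P : Subgroup G) : Set G)) :
    Nat.card (MulAction.fixedBy (G ⧸ normalizer ((P : Subgroup G) : Set G)) x) ≡ 1 [MOD p] := by
  obtain ⟨u, hou, hz, hc⟩ := gen P hP
  have h1 := coset_mod2 (normalizer ((P : Subgroup G) : Set G)) p 1 x u ((hc x).1 hx)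
    (by rw [pow_one, ← hou]; exact pow_orderOf_eq_one u)
  have h2 := (S1018.result p P hP).1 u hou
  have h3 : Nat.card {q : G ⧸ normalizer ((P : Subgroup G) : Set G) // x • q = q ∧ u • q = q} = 1 := by
    rw [Nat.card_eq_one_iff_unique] at h2 ⊢
    constructor
    · constructor
      rintro ⟨a, ha⟩ ⟨b, hb⟩
      apply Subtype.ext
      have := h2.1.elim ⟨a, ha.2⟩ ⟨b, hb.2⟩
      change a = b
      exact congrArg Subtype.val this
    · refine ⟨⟨((1 : G) : G ⧸ _), ?_, ?_⟩⟩
      · rw [S1018.fix_iff]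
        simpa using Subgroup.centralizer_le_normalizer _ hx
      · rw [S1018.fix_iff]
        have : u ∈ (P : Subgroup G) := by rw [hz]; exact mem_zpowers u
        simpa using Subgroup.le_normalizer this
  rw [h3] at h1
  exact h1

include hP in
theorem card_orbits : Nat.card (MulAction.orbitRel.Quotient ↥(P : Subgroup G) (G ⧸ normalizer ((P : Subgroup G) : Set G))) * p =
    (normalizer ((P : Subgroup G) : Set G)).index + (p - 1) := by
  classical
  let _ : Fintype (P : Subgroup G) := Fintype.ofFinite _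
  let _ : Fintype (G ⧸ normalizer ((P : Subgroup G) : Set G)) := Fintype.ofFinite _
  let _ : Fintype (MulAction.orbitRel.Quotient ↥(P : Subgroup G) (G ⧸ normalizer ((P : Subgroup G) : Set G))) := Fintype.ofFinite _
  have h1 := MulAction.sum_card_fixedBy_eq_card_orbits_mul_card_group (P : Subgroup G) (G ⧸ normalizer ((P : Subgroup G) : Set G))
  have h2 : Fintype.card (P : Subgroup G) = p := by rw [← Nat.card_eq_fintype_card, hP]
  rw [h2] at h1
  rw [Nat.card_eq_fintype_card]
  rw [← Finset.add_sum_erase _ _ (Finset.mem_univ (1 : (P : Subgroup G)))] at h1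
  have h3 : ∀ a ∈ Finset.univ.erase (1 : (P : Subgroup G)), Fintype.card (MulAction.fixedBy (G ⧸ normalizer ((P : Subgroup G) : Set G)) a) = 1 := by
    intro a ha
    have ha1 := Finset.ne_of_mem_erase ha
    have hoa : orderOf (a : G) = p := by
      have h2 := Subgroup.orderOf_dvd_natCard _ a.2
      rw [hP] at h2
      rcases (Nat.dvd_prime hp.out).1 h2 with h3 | h3
      · exact absurd (Subtype.ext (orderOf_eq_one_iff.1 h3)) ha1
      · exact h3
    rw [← (S1018.result p P hP).1 a hoa, ← Nat.card_eq_fintype_card]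
    rfl
  rw [Finset.sum_congr rfl h3, Finset.sum_const, Finset.card_erase_of_mem (Finset.mem_univ _), Finset.card_univ, h2,
    smul_eq_mul, mul_one] at h1
  have h4 : Fintype.card (MulAction.fixedBy (G ⧸ normalizer ((P : Subgroup G) : Set G)) (1 : (P : Subgroup G))) =
      (normalizer ((P : Subgroup G) : Set G)).index := by
    rw [Subgroup.index, ← Nat.card_eq_fintype_card]
    apply Nat.card_congr
    refine ⟨fun q => q.1, fun q => ⟨q, ?_⟩, fun _ => rfl, fun _ => rfl⟩
    exact one_smul (P : Subgroup G) q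
  rw [h4] at h1
  exact h1.symm

include hP in
/-- if `t` has many fixed points, its conjugates in `N(P)` centralise `P` -/
theorem in_cent (t g : G) (htg : IsConj t g) (hgN : g ∈ normalizer ((P : Subgroup G) : Set G))
    (hbig : (normalizer ((P : Subgroup G) : Set G)).index + (p - 1) <
      Nat.card (MulAction.fixedBy (G ⧸ normalizer ((P : Subgroup G) : Set G)) t) * p) :
    g ∈ centralizer ((P : Subgroup G) : Set G) := by
  by_contra hg
  have h1 := (S1018.result p P hP).2 g hgN hg
  rw [← fx_conj _ t g htg] at h1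
  have h2 := card_orbits P hP
  have h3 := Nat.mul_le_mul_right p h1
  omega

include hP in
theorem inv_count (hp2 : p ≠ 2) (B : Subgroup G) (hPB : (P : Subgroup G) ≤ B)
    (hB : B ≤ centralizer ((P : Subgroup G) : Set G)) :
    Nat.card {g : G // g ∈ B ∧ g ^ 2 = 1} * p ≤ Nat.card B := by
  conv_lhs => rw [← hP]
  rw [← Nat.card_prod]
  have hodd : Odd p := hp.out.odd_of_ne_two hp2
  apply Nat.card_le_card_of_injective (fun q : {g : G // g ∈ B ∧ g ^ 2 = 1} × (P : Subgroup G) =>
    (⟨q.1.1 * q.2.1, B.mul_mem q.1.2.1 (hPB q.2.2)⟩ : B))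
  rintro ⟨⟨a, ha, ha2⟩, ⟨u, hu⟩⟩ ⟨⟨b, hb, hb2⟩, ⟨v, hv⟩⟩ hab
  have h1 : a * u = b * v := congrArg Subtype.val hab
  have hau : Commute a u := ((Subgroup.mem_centralizer_iff.1 (hB ha)) u hu).symm
  have hbv : Commute b v := ((Subgroup.mem_centralizer_iff.1 (hB hb)) v hv).symm
  have h2 : u ^ 2 = v ^ 2 := by
    have := congrArg (fun x => x ^ 2) h1
    simp only [hau.mul_pow, hbv.mul_pow, ha2, hb2, one_mul] at this
    exact this
  have hup : u ^ p = 1 := by
    have h := Subgroup.orderOf_dvd_natCard _ hu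
    rw [hP] at h
    exact orderOf_dvd_iff_pow_eq_one.1 h
  have hvp : v ^ p = 1 := by
    have h := Subgroup.orderOf_dvd_natCard _ hv
    rw [hP] at h
    exact orderOf_dvd_iff_pow_eq_one.1 h
  obtain ⟨m, hm⟩ := hodd
  have h3 : u = v := by
    have e1 : u = (u ^ 2) ^ (m + 1) := by
      rw [← pow_mul, show 2 * (m + 1) = p + 1 by omega, pow_succ, hup, one_mul]
    have e2 : v = (v ^ 2) ^ (m + 1) := by
      rw [← pow_mul, show 2 * (m + 1) = p + 1 by omega, pow_succ, hvp, one_mul]
    rw [e1, e2, h2]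
  subst h3
  have h4 : a = b := mul_right_cancel h1
  subst h4
  rfl

/-- the conjugates of an involution and the identity -/
theorem inv_succ (t : G) (ht : orderOf t = 2) (B : Subgroup G) :
    Nat.card {g : G // IsConj t g ∧ g ∈ B} + 1 ≤ Nat.card {g : G // g ∈ B ∧ g ^ 2 = 1} := by
  rw [← Finite.card_option]
  have hord : ∀ g : G, IsConj t g → orderOf g = 2 := by
    intro g hg
    obtain ⟨c, rfl⟩ := isConj_iff.1 hg
    have := MulEquiv.orderOf_eq (MulAut.conj c) t
    rw [MulAut.conj_apply] at this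
    rw [this, ht]
  apply Nat.card_le_card_of_injective (fun o : Option {g : G // IsConj t g ∧ g ∈ B} =>
    (o.elim ⟨1, B.one_mem, one_pow 2⟩ (fun g => ⟨g.1, g.2.2, by
      have := hord g.1 g.2.1
      rw [← this]; exact pow_orderOf_eq_one _⟩) : {g : G // g ∈ B ∧ g ^ 2 = 1}))
  rintro (_ | ⟨a, ha⟩) (_ | ⟨b, hb⟩) hab
  · rfl
  · simp only [Option.elim, Subtype.mk.injEq] at hab
    have := hord b hb.1
    rw [← hab, orderOf_one] at this
    omega
  · simp only [Option.elim, Subtype.mk.injEq] at hab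
    have := hord a ha.1
    rw [hab, orderOf_one] at this
    omega
  · simp only [Option.elim, Subtype.mk.injEq] at hab
    subst hab
    rfl

include hP in
theorem conj_mod (t : G) : Nat.card {g : G // IsConj t g ∧ g ∈ normalizer ((P : Subgroup G) : Set G)} ≡
    Nat.card {g : G // IsConj t g ∧ g ∈ centralizer ((P : Subgroup G) : Set G)} [MOD p] := by
  obtain ⟨u, hou, hz, hc⟩ := gen P hP
  have huN : u ∈ normalizer ((P : Subgroup G) : Set G) := by
    apply Subgroup.le_normalizer
    rw [hz]; exact mem_zpowers u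
  have h1 := cls_mod t u (fun g => g ∈ normalizer ((P : Subgroup G) : Set G)) p 1 (by
    intro g
    constructor
    · intro h
      exact mul_mem (mul_mem huN h) (inv_mem huN)
    · intro h
      have := mul_mem (mul_mem (inv_mem huN) h) huN
      have e : u⁻¹ * (u * g * u⁻¹) * u = g := by group
      rwa [e] at this) (by rw [pow_one, ← hou]; exact pow_orderOf_eq_one u)
  have h2 : Nat.card {g : G // IsConj t g ∧ g ∈ normalizer ((P : Subgroup G) : Set G) ∧ g * u = u * g} =
      Nat.card {g : G // IsConj t g ∧ g ∈ centralizer ((P : Subgroup G) : Set G)} := by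
    apply Nat.card_congr
    apply Equiv.subtypeEquivRight
    intro g
    rw [hc]
    constructor
    · rintro ⟨h1, h2, h3⟩
      exact ⟨h1, h3⟩
    · rintro ⟨h1, h3⟩
      exact ⟨h1, Subgroup.centralizer_le_normalizer _ ((hc g).2 h3), h3⟩
  rw [h2] at h1
  exact h1

include hP in
/-- Sylow numbers of an overgroup of `P` -/
theorem sub_num (K : Subgroup G) (hPK : (P : Subgroup G) ≤ K) :
    ∃ m, m % p = 1 ∧ m * Nat.card (normalizer ((P : Subgroup G) : Set G) ⊓ K : Subgroup G) = Nat.card K ∧
      p ∣ Nat.card (normalizer ((P : Subgroup G) : Set G) ⊓ K : Subgroup G) := by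
  let P' : Sylow p K := P.subtype hPK
  refine ⟨Nat.card (Sylow p K), ?_, ?_, ?_⟩
  · have h1 := card_sylow_modEq_one p K
    unfold Nat.ModEq at h1
    rw [h1, Nat.mod_eq_of_lt hp.out.one_lt]
  · rw [Sylow.card_eq_index_normalizer P', mul_comm]
    have h2 : Nat.card (normalizer ((P : Subgroup G) : Set G) ⊓ K : Subgroup G) =
        Nat.card (normalizer ((P' : Subgroup K) : Set K)) := by
      have h3 : ((P' : Subgroup K)) = (P : Subgroup G).subgroupOf K := rfl
      have h4 : normalizer ((P' : Subgroup K) : Set K) = (normalizer ((P : Subgroup G) : Set G)).subgroupOf K := by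
        rw [h3, ← subgroupOf_normalizer_eq hPK]
      rw [h4, ← Subgroup.subgroupOf_map_subtype]
      exact Subgroup.card_map_of_injective (Subgroup.subtype_injective _)
    rw [h2]
    exact Subgroup.card_mul_index _
  · conv_lhs => rw [← hP]
    exact Subgroup.card_dvd_of_le (le_inf Subgroup.le_normalizer hPK)

end syl

theorem four_dvd (B : Subgroup G) (h4 : 4 ∣ Nat.card B) (t : G) (htB : t ∈ B) (ht : orderOf t = 2) :
    4 ∣ Nat.card (B ⊓ centralizer ({t} : Set G) : Subgroup G) := by
  haveI : Fact (Nat.Prime 2) := ⟨Nat.prime_two⟩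
  let t' : B := ⟨t, htB⟩
  have ht' : orderOf t' = 2 := by
    rw [← ht]; exact (Subgroup.orderOf_coe t').symm
  obtain ⟨K, hK, hle⟩ := Sylow.exists_subgroup_card_pow_prime_le (G := B) 2 (n := 1) (m := 2) h4 (zpowers t')
    (by rw [Nat.card_zpowers, ht', pow_one]) (by norm_num)
  have hcomm : ∀ x ∈ K, ∀ y ∈ K, x * y = y * x := by
    intro x hx y hy
    have := (IsPGroup.isMulCommutative_of_card_eq_prime_sq (p := 2) hK).is_comm.comm ⟨x, hx⟩ ⟨y, hy⟩
    exact congrArg Subtype.val this
  have h1 : Nat.card (K.map B.subtype) = 4 := by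
    rw [Subgroup.card_map_of_injective (Subgroup.subtype_injective _), hK]; norm_num
  rw [← h1]
  apply Subgroup.card_dvd_of_le
  rintro _ ⟨x, hx, rfl⟩
  refine ⟨x.2, Subgroup.mem_centralizer_singleton_iff.2 ?_⟩
  have := hcomm x hx t' (hle (mem_zpowers t'))
  exact congrArg Subtype.val this

theorem split (p q : G → Prop) :
    Nat.card {g // p g} = Nat.card {g // p g ∧ q g} + Nat.card {g // p g ∧ ¬ q g} :=
  (Set.ncard_inter_add_ncard_diff_eq_ncard {g | p g} {g | q g} (Set.toFinite _)).symm

theorem cent_ne_top [IsSimpleGroup G] (hG : ¬ IsMulCommutative G) (t : G) (ht : t ≠ 1) :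
    centralizer ({t} : Set G) ≠ ⊤ := by
  intro h
  have h1 : t ∈ Subgroup.center G := by
    rw [Subgroup.mem_center_iff]
    intro g
    have : g ∈ centralizer ({t} : Set G) := by rw [h]; trivial
    exact Subgroup.mem_centralizer_singleton_iff.1 this
  rcases (inferInstance : (Subgroup.center G).Normal).eq_bot_or_eq_top with h2 | h2
  · rw [h2] at h1
    exact ht (Subgroup.mem_bot.1 h1)
  · apply hG
    refine ⟨⟨fun a b => ?_⟩⟩
    have : a ∈ Subgroup.center G := by rw [h2]; trivial
    exact (Subgroup.mem_center_iff.1 this b).symm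

theorem card_cls_conj (t s : G) (h : IsConj t s) : Nat.card {g : G // IsConj s g} = Nat.card {g : G // IsConj t g} := by
  apply Nat.card_congr
  apply Equiv.subtypeEquivRight
  intro g
  exact ⟨fun h1 => h.trans h1, fun h1 => h.symm.trans h1⟩

theorem card_cent_conj (t s : G) (h : IsConj t s) :
    Nat.card (centralizer ({s} : Set G)) = Nat.card (centralizer ({t} : Set G)) := by
  have h1 := card_cls t
  have h2 := card_cls s
  rw [card_cls_conj t s h] at h2
  have h3 : 0 < Nat.card {g : G // IsConj t g} := by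
    have : Nonempty {g : G // IsConj t g} := ⟨⟨t, IsConj.refl _⟩⟩
    exact Nat.card_pos
  exact Nat.eq_of_mul_eq_mul_right h3 (h2.trans h1.symm)

/-- existence of an element of prime order in the centraliser -/
theorem exists_ord (C : Subgroup G) (r : ℕ) [hr : Fact r.Prime] (h : r ∣ Nat.card C) : ∃ x ∈ C, orderOf x = r := by
  obtain ⟨x, hx⟩ := exists_prime_orderOf_dvd_card' (G := C) r h
  exact ⟨x, x.2, by rw [← hx]; exact Subgroup.orderOf_coe x⟩

end Cfsg.Agent.H13.Cnt
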