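import Mathlib
import Cfsg.Agent.H13_Cnt

/-!
# Packaged counting data, and the orders 1440 and 2016
-/

set_option autoImplicit false

open Cfsg

namespace Cfsg.Agent.H13.Cnt2

open Subgroup Cfsg.Agent.H13.Cnt

variable {G : Type*} [Group G] [Finite G]

theorem setup [IsSimpleGroup G] (hG : ¬ IsMulCommutative G) (p : ℕ) [hp : Fact p.Prime] (m : ℕ)
    (hcard : Nat.card G = p * m) (hm : ¬ p ∣ m) (P : Sylow p G) :
    ∃ n k r : ℕ, n ∣ m ∧ n % p = 1 ∧ n ≠ 1 ∧ n * k = m ∧ Nat.card (P : Subgroup G) = p ∧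
      Nat.card (normalizer ((P : Subgroup G) : Set G)) = p * k ∧ n = (normalizer ((P : Subgroup G) : Set G)).index ∧
      normalizer ((P : Subgroup G) : Set G) ≠ ⊤ ∧ 2 * Nat.card G ∣ n.factorial ∧
      r ∣ p - 1 ∧ r ≠ 1 ∧ Nat.card (centralizer ((P : Subgroup G) : Set G)) * r = p * k ∧
      (P : Subgroup G) ≤ centralizer ((P : Subgroup G) : Set G) := by
  obtain ⟨n, k, hn0, hnm, hn1, hn2, hnk, hP, hN, hidx, hNt, hfac⟩ :=
    H9.Small.sylow_num hG 1 m (by rw [pow_one]; exact hcard) hm one_ne_zero P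
  rw [pow_one] at hP
  rw [pow_one] at hN
  have hdvd : p ∣ Nat.card G := by rw [hcard]; exact dvd_mul_right _ _
  have hr1 := H9.Small.relIndex_centralizer_dvd P hP
  have hr2 := H9.Small.relIndex_centralizer_ne_one hG hdvd P
  have hr3 := H9.Small.card_centralizer_mul (P : Subgroup G)
  rw [hN] at hr3
  refine ⟨n, k, _, hnm, hn1, hn2, hnk, hP, hN, hidx, hNt, hfac, hr1, hr2, hr3, ?_⟩
  obtain ⟨u, hou, hz, hc⟩ := gen P hP
  intro y hy
  rw [hc]
  rw [hz] at hy
  obtain ⟨j, rfl⟩ := mem_zpowers_iff.1 hy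
  exact ((Commute.refl u).zpow_left j).eq

theorem elt_data [IsSimpleGroup G] {p : ℕ} [hp : Fact p.Prime] (P : Sylow p G)
    (hP : Nat.card (P : Subgroup G) = p) (hNt : normalizer ((P : Subgroup G) : Set G) ≠ ⊤) (q a : ℕ) [hq : Fact q.Prime]
    (x : G) (hx : x ∈ centralizer ((P : Subgroup G) : Set G)) (hx1 : x ≠ 1) (hxq : x ^ (q ^ a) = 1) :
    Nat.card (MulAction.fixedBy (G ⧸ normalizer ((P : Subgroup G) : Set G)) x) % p = 1 ∧
    Nat.card (MulAction.fixedBy (G ⧸ normalizer ((P : Subgroup G) : Set G)) x) < (normalizer ((P : Subgroup G) : Set G)).index ∧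
    (normalizer ((P : Subgroup G) : Set G)).index % q =
      Nat.card (MulAction.fixedBy (G ⧸ normalizer ((P : Subgroup G) : Set G)) x) % q := by
  refine ⟨?_, lt_index _ hNt x hx1, coset_mod _ q a x hxq⟩
  have h1 := syl_mod P hP x hx
  unfold Nat.ModEq at h1
  rw [h1, Nat.mod_eq_of_lt hp.out.one_lt]

theorem inv_data [IsSimpleGroup G] (hG : ¬ IsMulCommutative G) {p : ℕ} [hp : Fact p.Prime] (hp2 : p ≠ 2) (P : Sylow p G)
    (hP : Nat.card (P : Subgroup G) = p) (hNt : normalizer ((P : Subgroup G) : Set G) ≠ ⊤)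
    (hPC : (P : Subgroup G) ≤ centralizer ((P : Subgroup G) : Set G))
    (t : G) (htC : t ∈ centralizer ((P : Subgroup G) : Set G)) (ht : orderOf t = 2) :
    ∃ f j' j K I k : ℕ, f % p = 1 ∧ (normalizer ((P : Subgroup G) : Set G)).index = f + 4 * k ∧
      f < (normalizer ((P : Subgroup G) : Set G)).index ∧
      f * Nat.card (normalizer ((P : Subgroup G) : Set G)) = K * j' ∧
      ((normalizer ((P : Subgroup G) : Set G)).index + (p - 1) < f * p → j' = j) ∧ j' % p = j % p ∧
      (j + 1) * p ≤ Nat.card (centralizer ((P : Subgroup G) : Set G)) ∧ K * I = Nat.card G ∧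
      K = Nat.card (centralizer ({t} : Set G)) ∧ I = (centralizer ({t} : Set G)).index ∧
      centralizer ({t} : Set G) ≠ ⊤ ∧ 2 * Nat.card G ∣ I.factorial ∧ 1 ≤ j := by
  have ht1 : t ≠ 1 := by
    rintro rfl
    rw [orderOf_one] at ht
    omega
  have ht2 : t ^ 2 = 1 := by rw [← ht]; exact pow_orderOf_eq_one t
  have f1 := syl_mod P hP t htC
  obtain ⟨k1, f2⟩ := coset_sign hG (normalizer ((P : Subgroup G) : Set G)) t ht2
  have f3 := lt_index (normalizer ((P : Subgroup G) : Set G)) hNt t ht1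
  have f4 := fix_card (normalizer ((P : Subgroup G) : Set G)) t (Subgroup.centralizer_le_normalizer _ htC)
  have f5 := conj_mod P hP t
  have f7 := inv_count P hP hp2 (centralizer ((P : Subgroup G) : Set G)) hPC le_rfl
  have f8 := inv_succ t ht (centralizer ((P : Subgroup G) : Set G))
  have hKt := cent_ne_top hG t ht1
  refine ⟨_, _, Nat.card {g : G // IsConj t g ∧ g ∈ centralizer ((P : Subgroup G) : Set G)}, _, _, k1, ?_, f2, f3, f4, ?_, f5, ?_,
    Subgroup.card_mul_index (centralizer ({t} : Set G)), rfl, rfl, hKt, H9.Small.two_mul_card_dvd hG _ hKt, ?_⟩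
  · unfold Nat.ModEq at f1
    rw [f1, Nat.mod_eq_of_lt hp.out.one_lt]
  · intro hf
    apply Nat.card_congr
    apply Equiv.subtypeEquivRight
    intro g
    constructor
    · rintro ⟨h1, h2⟩
      exact ⟨h1, in_cent P hP t g h1 h2 hf⟩
    · rintro ⟨h1, h2⟩
      exact ⟨h1, Subgroup.centralizer_le_normalizer _ h2⟩
  · exact (Nat.mul_le_mul_right p f8).trans f7
  · have : Nonempty {g : G // IsConj t g ∧ g ∈ centralizer ((P : Subgroup G) : Set G)} := ⟨⟨t, IsConj.refl _, htC⟩⟩
    exact Nat.card_pos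

/-- an involution and a commuting element of prime order on a coset space -/
theorem two_fix [IsSimpleGroup G] (hG : ¬ IsMulCommutative G) (p : ℕ) [hp : Fact p.Prime] (H : Subgroup G) (hH : H ≠ ⊤)
    (t u : G) (ht : orderOf t = 2) (hu : orderOf u = p) (htu : t * u = u * t) :
    ∃ Ft Fu D k : ℕ, H.index = Ft + 4 * k ∧ Ft < H.index ∧ H.index % p = Fu % p ∧ Fu < H.index ∧
      Ft % p = D % p ∧ Fu % 2 = D % 2 ∧ D ≤ Fu ∧ D ≤ Ft := by
  haveI : Fact (Nat.Prime 2) := ⟨Nat.prime_two⟩
  have ht1 : t ≠ 1 := by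
    rintro rfl
    rw [orderOf_one] at ht
    omega
  have ht2 : t ^ 2 = 1 := by rw [← ht]; exact pow_orderOf_eq_one t
  have hu1 : u ≠ 1 := by
    rintro rfl
    rw [orderOf_one] at hu
    exact hp.out.one_lt.ne hu
  have hup : u ^ p = 1 := by rw [← hu]; exact pow_orderOf_eq_one u
  obtain ⟨k2, g1⟩ := coset_sign hG H t ht2
  have g2 := lt_index H hH t ht1
  have g3 := coset_mod H p 1 u (by rw [pow_one]; exact hup)
  have g4 := lt_index H hH u hu1
  have g5 := coset_mod2 H p 1 t u htu (by rw [pow_one]; exact hup)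
  have g6 := coset_mod2 H 2 1 u t htu.symm (by rw [pow_one]; exact ht2)
  have g7 : Nat.card {q : G ⧸ H // t • q = q ∧ u • q = q} = Nat.card {q : G ⧸ H // u • q = q ∧ t • q = q} := by
    apply Nat.card_congr
    apply Equiv.subtypeEquivRight
    intro q
    exact and_comm
  have g8 : Nat.card {q : G ⧸ H // u • q = q ∧ t • q = q} ≤ Nat.card (MulAction.fixedBy (G ⧸ H) u) := by
    apply Nat.card_le_card_of_injective (fun q => (⟨q.1, q.2.1⟩ : MulAction.fixedBy (G ⧸ H) u))
    intro a b hab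
    exact Subtype.ext (congrArg (fun z : MulAction.fixedBy (G ⧸ H) u => (z : G ⧸ H)) hab)
  have g9 : Nat.card {q : G ⧸ H // u • q = q ∧ t • q = q} ≤ Nat.card (MulAction.fixedBy (G ⧸ H) t) := by
    apply Nat.card_le_card_of_injective (fun q => (⟨q.1, q.2.2⟩ : MulAction.fixedBy (G ⧸ H) t))
    intro a b hab
    exact Subtype.ext (congrArg (fun z : MulAction.fixedBy (G ⧸ H) t => (z : G ⧸ H)) hab)
  rw [g7] at g5
  exact ⟨_, _, _, k2, g1, g2, g3, g4, g5, g6, g8, g9⟩

/-- Burnside's lemma for a subgroup all of whose nontrivial elements fix `c` points -/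
theorem burn (B H : Subgroup G) (c : ℕ) (h : ∀ b ∈ B, b ≠ 1 → Nat.card (MulAction.fixedBy (G ⧸ H) b) = c) :
    ∃ o, H.index + (Nat.card B - 1) * c = o * Nat.card B := by
  classical
  let _ : Fintype B := Fintype.ofFinite _
  let _ : Fintype (G ⧸ H) := Fintype.ofFinite _
  let _ : Fintype (MulAction.orbitRel.Quotient B (G ⧸ H)) := Fintype.ofFinite _
  have h1 := MulAction.sum_card_fixedBy_eq_card_orbits_mul_card_group B (G ⧸ H)
  rw [← Finset.add_sum_erase _ _ (Finset.mem_univ (1 : B))] at h1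
  have h3 : ∀ a ∈ Finset.univ.erase (1 : B), Fintype.card (MulAction.fixedBy (G ⧸ H) a) = c := by
    intro a ha
    have ha1 := Finset.ne_of_mem_erase ha
    rw [← h a a.2 (fun h => ha1 (Subtype.ext h)), ← Nat.card_eq_fintype_card]
    rfl
  rw [Finset.sum_congr rfl h3, Finset.sum_const, Finset.card_erase_of_mem (Finset.mem_univ _), Finset.card_univ,
    smul_eq_mul] at h1
  have h4 : Fintype.card (MulAction.fixedBy (G ⧸ H) (1 : B)) = H.index := by
    rw [Subgroup.index, ← Nat.card_eq_fintype_card]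
    apply Nat.card_congr
    refine ⟨fun q => q.1, fun q => ⟨q, ?_⟩, fun _ => rfl, fun _ => rfl⟩
    exact one_smul B q
  rw [h4] at h1
  rw [Nat.card_eq_fintype_card]
  exact ⟨_, h1⟩

theorem ord2016 [IsSimpleGroup G] : Nat.card G ≠ 2016 := by
  intro hcard
  have hG : ¬ IsMulCommutative G := H9.Small.not_comm (by rw [hcard]; norm_num)
  haveI : Fact (Nat.Prime 7) := ⟨by norm_num⟩
  haveI : Fact (Nat.Prime 3) := ⟨by norm_num⟩
  haveI : Fact (Nat.Prime 2) := ⟨Nat.prime_two⟩
  obtain ⟨P⟩ : Nonempty (Sylow 7 G) := inferInstance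
  obtain ⟨n, k, r, hnm, hn1, hn2, hnk, hP, hN, hidx, hNt, hfac, hr1, hr2, hr3, hPC⟩ :=
    setup hG 7 288 (by rw [hcard]) (by norm_num) P
  have hr4 : r = 2 ∨ r = 3 ∨ r = 6 := by
    have h3 : r ≤ 6 := Nat.le_of_dvd (by norm_num) hr1
    interval_cases r <;> omega
  have hn : n = 8 ∨ n = 36 ∨ n = 288 := by
    have h3 : n ≤ 288 := Nat.le_of_dvd (by norm_num) hnm
    interval_cases n <;> omega
  rcases hn with h | h | h
  · subst h
    have hk : k = 36 := by omega
    rw [hk] at hr3
    obtain ⟨x, hxC, hx⟩ := exists_ord (centralizer ((P : Subgroup G) : Set G)) 3 (by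
      rcases hr4 with h | h | h <;> rw [h] at hr3 <;> omega)
    have e := elt_data P hP hNt 3 1 x hxC (by
      rintro rfl
      rw [orderOf_one] at hx
      omega) (by rw [pow_one, ← hx]; exact pow_orderOf_eq_one x)
    rw [← hidx] at e
    omega
  · subst h
    have hk : k = 8 := by omega
    rw [hk] at hr3 hN
    have hC : Nat.card (centralizer ((P : Subgroup G) : Set G)) = 28 := by
      rcases hr4 with h | h | h <;> rw [h] at hr3 <;> omega
    obtain ⟨t, htC, ht⟩ := exists_ord (centralizer ((P : Subgroup G) : Set G)) 2 (by rw [hC]; norm_num)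
    obtain ⟨f, j', j, K, I, k2, e1, e2, e3, e4, e5, e6, e7, e8, e9, e10, e11, e12, e13⟩ := inv_data hG (by norm_num) P hP hNt hPC t htC ht
    rw [← hidx] at e2 e3 e5
    rw [hN] at e4
    rw [hC] at e7
    rw [hcard] at e8 e12
    have hf : f = 8 := by omega
    subst hf
    have hj := e5 (by norm_num)
    subst hj
    have hj3 : j' ≤ 3 := by omega
    have hj2 : j' = 2 := by
      interval_cases j'
      · have : K = 448 := by omega
        rw [this] at e8; omega
      · rfl
      · omega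
    subst hj2
    have hI : I = 9 := by
      have : K = 224 := by omega
      rw [this] at e8; omega
    obtain ⟨u, hou, hz, hc⟩ := gen P hP
    obtain ⟨Ft, Fu, D, k3, g1, g2, g3, g4, g5, g6, g7, g8⟩ := two_fix hG 7 (centralizer ({t} : Set G)) e11 t u ht hou ((hc t).1 htC)
    rw [← e10, hI] at g1 g2 g3 g4
    have hFu : Fu = 2 := by omega
    subst hFu
    omega
  · subst h
    have hk : k = 1 := by omega
    rw [hk] at hr3
    rcases hr4 with h | h | h <;> rw [h] at hr3 <;> omega

theorem ord1440 [IsSimpleGroup G] : Nat.card G ≠ 1440 := by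
  intro hcard
  have hG : ¬ IsMulCommutative G := H9.Small.not_comm (by rw [hcard]; norm_num)
  haveI : Fact (Nat.Prime 5) := ⟨by norm_num⟩
  haveI : Fact (Nat.Prime 3) := ⟨by norm_num⟩
  haveI : Fact (Nat.Prime 2) := ⟨Nat.prime_two⟩
  obtain ⟨P⟩ : Nonempty (Sylow 5 G) := inferInstance
  obtain ⟨n, k, r, hnm, hn1, hn2, hnk, hP, hN, hidx, hNt, hfac, hr1, hr2, hr3, hPC⟩ :=
    setup hG 5 288 (by rw [hcard]) (by norm_num) P
  have hr4 : r = 2 ∨ r = 4 := by
    have h3 : r ≤ 4 := Nat.le_of_dvd (by norm_num) hr1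
    interval_cases r <;> omega
  have hn : n = 6 ∨ n = 16 ∨ n = 36 ∨ n = 96 := by
    have h3 : n ≤ 288 := Nat.le_of_dvd (by norm_num) hnm
    interval_cases n <;> omega
  rcases hn with h | h | h | h
  · subst h
    rw [hcard] at hfac
    norm_num [Nat.factorial] at hfac
  · subst h
    have hk : k = 18 := by omega
    rw [hk] at hr3
    have hC : Nat.card (centralizer ((P : Subgroup G) : Set G)) = 45 := by
      rcases hr4 with h | h <;> rw [h] at hr3 <;> omega
    obtain ⟨B', hB'⟩ := Sylow.exists_subgroup_card_pow_prime (G := centralizer ((P : Subgroup G) : Set G)) 3 (n := 2)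
      (by rw [hC]; norm_num)
    obtain ⟨o, ho⟩ := burn (B'.map (centralizer ((P : Subgroup G) : Set G)).subtype) (normalizer ((P : Subgroup G) : Set G)) 1 (by
      rintro _ ⟨b, hb, rfl⟩ hb1
      have h9 : (b : G) ^ 3 ^ 2 = 1 := by
        have h := Subgroup.orderOf_dvd_natCard _ hb
        rw [hB'] at h
        have h2 := orderOf_dvd_iff_pow_eq_one.1 h
        exact_mod_cast congrArg Subtype.val h2
      have e := elt_data P hP hNt 3 2 (b : G) b.2 hb1 h9
      rw [← hidx] at e
      change Nat.card (MulAction.fixedBy (G ⧸ normalizer ((P : Subgroup G) : Set G)) (b : G)) = 1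
      omega)
    rw [Subgroup.card_map_of_injective (Subgroup.subtype_injective _), hB', ← hidx] at ho
    omega
  · subst h
    have hk : k = 8 := by omega
    rw [hk] at hr3 hN
    have hC : Nat.card (centralizer ((P : Subgroup G) : Set G)) = 20 ∨ Nat.card (centralizer ((P : Subgroup G) : Set G)) = 10 := by
      rcases hr4 with h | h <;> rw [h] at hr3 <;> omega
    obtain ⟨t, htC, ht⟩ := exists_ord (centralizer ((P : Subgroup G) : Set G)) 2 (by rcases hC with h | h <;> rw [h] <;> norm_num)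
    obtain ⟨f, j', j, K, I, k2, e1, e2, e3, e4, e5, e6, e7, e8, e9, e10, e11, e12, e13⟩ := inv_data hG (by norm_num) P hP hNt hPC t htC ht
    rw [← hidx] at e2 e3 e5
    rw [hN] at e4
    rw [hcard] at e8 e12
    have hf : f = 16 := by omega
    subst hf
    have hj := e5 (by norm_num)
    subst hj
    have hj3 : j' ≤ 3 := by omega
    interval_cases j'
    · have : K = 640 := by omega
      rw [this] at e8; omega
    · have : K = 320 := by omega
      rw [this] at e8; omega
    · omega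
  · subst h
    have hk : k = 3 := by omega
    rw [hk] at hr3
    rcases hr4 with h | h <;> rw [h] at hr3 <;> omega

end Cfsg.Agent.H13.Cnt2
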