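import Mathlib
import Cfsg.Agent.H9_BrCor
import Cfsg.Agent.H10_BlockKn
import Cfsg.Agent.H13_Cnt2

/-!
# Degrees in the principal block of a simple group with a Sylow subgroup of prime order
-/

set_option autoImplicit false
set_option linter.unusedSectionVars false

namespace Cfsg.Agent.H13.BrDeg

open Cfsg Cfsg.Agent.H3.CharIrr Cfsg.Agent.H3.CharComplete Cfsg.Agent.H10.Char Cfsg.Agent.H10.BlockKer
  Cfsg.Agent.H9.BrVec Cfsg.Agent.H9.BrMain Cfsg.Agent.H9.BrThm Cfsg.Agent.H9.BrCor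
open scoped ComplexConjugate

section simple

variable {G : Type*} [Group G] [Fintype G] [IsSimpleGroup G]

theorem perfect (hG : ¬ IsMulCommutative G) : commutator G = ⊤ := by
  rcases (inferInstance : (commutator G).Normal).eq_bot_or_eq_top with h | h
  · exfalso
    apply hG
    rw [isMulCommutative_iff]
    intro a b
    have h1 : a * b * a⁻¹ * b⁻¹ ∈ commutator G := Subgroup.commutator_mem_commutator (Subgroup.mem_top a) (Subgroup.mem_top b)
    rw [h, Subgroup.mem_bot, mul_inv_eq_one, mul_inv_eq_iff_eq_mul] at h1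
    exact h1
  · exact h

theorem hom_trivial' {A : Type*} [CommGroup A] (hperf : commutator G = ⊤) (f : G →* A) (g : G) : f g = 1 := by
  have h1 : commutator G ≤ f.ker := Abelianization.commutator_subset_ker f
  rw [hperf] at h1
  exact h1 (Subgroup.mem_top g)

theorem lin_triv (hG : ¬ IsMulCommutative G) {χ : IrrCharacter G} (hχ : charDegree (χ : G → ℂ) = 1) : χ = triv G := by
  have h1 := charDegree_eq χ.2
  rw [hχ, Nat.cast_one] at h1
  obtain ⟨f, hf⟩ := Cfsg.Agent.H3.CharInd.IsChar.hom_units_of_one (IsIrr.isCharacter χ.2) h1.symm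
  apply Subtype.ext
  funext g
  rw [hf, hom_trivial' (perfect hG) f g, triv_coe, Units.val_one]

theorem deg_triv : charDegree ((triv G : IrrCharacter G) : G → ℂ) = 1 := by
  have := charDegree_eq (triv G : IrrCharacter G).2
  rw [triv_coe] at this
  exact_mod_cast this

theorem sum_sq_nat [Fintype (IrrCharacter G)] : ∑ χ : IrrCharacter G, charDegree (χ : G → ℂ) ^ 2 = Nat.card G := by
  have h := sum_sq (G := G)
  have h2 : ((∑ χ : IrrCharacter G, charDegree (χ : G → ℂ) ^ 2 : ℕ) : ℂ) = (Nat.card G : ℂ) := by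
    rw [← h]
    push_cast
    exact Finset.sum_congr rfl fun χ _ => by rw [charDegree_eq χ.2]
  exact_mod_cast h2

/-- degrees in the principal block -/
theorem bdeg (hG : ¬ IsMulCommutative G) (p : ℕ) [hp : Fact p.Prime] (P : Sylow p G) (hP : Nat.card (P : Subgroup G) = p)
    (e : ℕ) (he : (Subgroup.centralizer ((P : Subgroup G) : Set G)).relIndex (Subgroup.normalizer ((P : Subgroup G) : Set G)) = e) :
    ∃ (z : G) (X Y : Finset (IrrCharacter G)) (δ : IrrCharacter G → ℤ) (ε : ℤ) (g : ℕ),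
      Subgroup.zpowers z = (P : Subgroup G) ∧ orderOf z = p ∧
      Disjoint X Y ∧ triv G ∈ X ∧ X.card = e ∧ Y.card * e = p - 1 ∧ δ (triv G) = 1 ∧ (ε = 1 ∨ ε = -1) ∧
      (∀ χ ∈ X, (δ χ = 1 ∨ δ χ = -1) ∧ (χ : G → ℂ) z = δ χ ∧ ∃ k : ℤ, (charDegree (χ : G → ℂ) : ℤ) = p * k + δ χ) ∧
      (∀ θ ∈ Y, charDegree (θ : G → ℂ) = g) ∧ (∃ k : ℤ, (g : ℤ) = p * k + ε * e) ∧
      ((ε : ℤ) * g = ∑ χ ∈ X, δ χ * charDegree (χ : G → ℂ)) ∧
      (∀ θ ∈ Y, ∀ s : G, ¬ p ∣ orderOf s → (ε : ℂ) * (θ : G → ℂ) s = ∑ χ ∈ X, (δ χ : ℂ) * (χ : G → ℂ) s) ∧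
      (∑ χ ∈ X, charDegree (χ : G → ℂ) ^ 2 + Y.card * g ^ 2 ≤ Nat.card G) := by
  classical
  obtain ⟨M, hM⟩ := H10.BlockKn.exists_modular hp.out
  haveI : IsCyclic (P : Subgroup G) := isCyclic_of_prime_card hP
  obtain ⟨z0, hz0⟩ := IsCyclic.exists_generator (α := (P : Subgroup G))
  have hzP : Subgroup.zpowers (z0 : G) = (P : Subgroup G) := by
    ext x
    constructor
    · intro hx
      obtain ⟨n, rfl⟩ := Subgroup.mem_zpowers_iff.1 hx
      exact Subgroup.zpow_mem _ z0.2 n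
    · intro hx
      obtain ⟨n, hn⟩ := Subgroup.mem_zpowers_iff.1 (hz0 ⟨x, hx⟩)
      rw [Subgroup.mem_zpowers_iff]
      exact ⟨n, by simpa using congrArg Subtype.val hn⟩
  have hz : orderOf (z0 : G) = p := by
    rw [← Nat.card_zpowers, hzP]; exact hP
  have hzp : (z0 : G) ^ p = 1 := by
    have := pow_orderOf_eq_one (z0 : G)
    rwa [hz] at this
  have hsyl : ¬ p ∣ (Subgroup.zpowers (z0 : G)).index := by
    rw [hzP]; exact P.not_dvd_index
  have hcard : Nat.card (Cfsg.Agent.H9.BrMain.om hz).range = e := by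
    rw [card_range, ← he, hzP]
  obtain ⟨X, Y, δ, ε, L, h1, h2, h3, h4, h5, h6, h7, h8, h9, h10, h11, h12⟩ := brauer hM hz hzp hsyl
  have hmul := card_J hz
  have h1p : ¬ p ∣ orderOf (1 : G) := by
    rw [orderOf_one]; intro h; exact hp.out.one_lt.ne' (Nat.dvd_one.1 h)
  let j0 : (ZMod p)ˣ ⧸ (om hz).range := ((1 : (ZMod p)ˣ) : (ZMod p)ˣ ⧸ (om hz).range)
  have hrel1 : ∀ j, (ε : ℤ) * charDegree (L j : G → ℂ) = ∑ χ ∈ X, δ χ * charDegree (χ : G → ℂ) := by
    intro j
    have e1 := h12 j 1 h1p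
    have e2 : ((ε * charDegree (L j : G → ℂ) : ℤ) : ℂ) = ((∑ χ ∈ X, δ χ * charDegree (χ : G → ℂ) : ℤ) : ℂ) := by
      push_cast
      rw [charDegree_eq (L j).2, e1]
      exact Finset.sum_congr rfl fun χ _ => by rw [charDegree_eq χ.2]
    exact_mod_cast e2
  have hε0 : ε ≠ 0 := by rcases h7 with h | h <;> rw [h] <;> norm_num
  have hLsame : ∀ j, charDegree (L j : G → ℂ) = charDegree (L j0 : G → ℂ) := by
    intro j
    have e1 := (hrel1 j).trans (hrel1 j0).symm
    exact_mod_cast mul_left_cancel₀ hε0 e1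
  have hδt : δ (triv G) = 1 := by
    have e1 := (h6 _ h3).2 1
    rw [vv_triv hzp 1] at e1
    exact e1.symm
  refine ⟨z0, X, Y, δ, ε, charDegree (L j0 : G → ℂ), hzP, hz, h2, h3, by rw [h4, hcard], ?_, hδt, h7, ?_, ?_, ?_, hrel1 j0, ?_, ?_⟩
  · rw [h5, ← hcard, mul_comm]
    rw [← hmul]
  · intro χ hχ
    refine ⟨(h6 χ hχ).1, ?_, ⟨_, nonexc_degree hzp (h6 χ hχ).2⟩⟩
    have := nonexc_value hzp (h6 χ hχ).2 (i := 1) one_ne_zero
    rwa [zp_one] at this
  · intro θ hθ
    obtain ⟨j, rfl⟩ := (h9 θ).1 hθ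
    exact hLsame j
  · refine ⟨mu hzp (L j0) 0, ?_⟩
    rw [exc_degree hzp _ j0 (h10 j0) (h11 j0), hcard]
  · intro θ hθ s hs
    obtain ⟨j, rfl⟩ := (h9 θ).1 hθ
    exact h12 j s hs
  · haveI : Fintype (IrrCharacter G) := Fintype.ofFinite _
    have e1 : ∑ χ ∈ Y, charDegree (χ : G → ℂ) ^ 2 = Y.card * charDegree (L j0 : G → ℂ) ^ 2 := by
      rw [← smul_eq_mul, ← Finset.sum_const]
      apply Finset.sum_congr rfl
      intro θ hθ
      obtain ⟨j, rfl⟩ := (h9 θ).1 hθ
      rw [hLsame j]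
    rw [← e1, ← Finset.sum_union h2, ← sum_sq_nat (G := G)]
    exact Finset.sum_le_sum_of_subset (Finset.subset_univ _)

end simple

theorem ord3744 {G : Type*} [Group G] [Finite G] [IsSimpleGroup G] : Nat.card G ≠ 3744 := by
  classical
  intro hcard
  have _ := Fintype.ofFinite G
  have hG : ¬ IsMulCommutative G := H9.Small.not_comm (by rw [hcard]; norm_num)
  haveI : Fact (Nat.Prime 13) := ⟨by norm_num⟩
  obtain ⟨P⟩ : Nonempty (Sylow 13 G) := inferInstance
  obtain ⟨n, k, r', hnm, hn1, hn2, hnk, hP, hN, hidx, hNt, hfac, -, -, -, hPC⟩ :=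
    H13.Cnt2.setup hG 13 288 (by rw [hcard]) (by norm_num) P
  have hn : n = 144 := by
    have h3 : n ≤ 288 := Nat.le_of_dvd (by norm_num) hnm
    interval_cases n <;> omega
  have hdvd : 13 ∣ Nat.card G := by rw [hcard]; norm_num
  have hr1 := H9.Small.relIndex_centralizer_dvd P hP
  have hr2 := H9.Small.relIndex_centralizer_ne_one hG hdvd P
  have hr3 := H9.Small.card_centralizer_mul (P : Subgroup G)
  have hk : k = 2 := by rw [hn] at hnk; omega
  rw [hN, hk] at hr3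
  obtain ⟨c, hc⟩ : 13 ∣ Nat.card (Subgroup.centralizer ((P : Subgroup G) : Set G)) := by
    conv_lhs => rw [← hP]
    exact Subgroup.card_dvd_of_le hPC
  obtain ⟨z, X, Y, δ, ε, g, hz1, hz2, hXY, htX, hXc, hYc, hδt, hε, hX, hY, ⟨kg, hg⟩, hrel, -, hsq⟩ := bdeg hG 13 P hP _ rfl
  set r := (Subgroup.centralizer ((P : Subgroup G) : Set G)).relIndex (Subgroup.normalizer ((P : Subgroup G) : Set G)) with hr
  have hr : r = 2 := by
    rw [hc] at hr3
    have h4 : c * r = 2 := by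
      have : 13 * (c * r) = 13 * 2 := by rw [← hr3]; ring
      omega
    have h5 : r ∣ 2 := ⟨c, by rw [← h4]; ring⟩
    have h6 : r ≤ 2 := Nat.le_of_dvd (by norm_num) h5
    interval_cases r <;> omega
  rw [hr] at hXc hYc hg
  have hYc6 : Y.card = 6 := by omega
  obtain ⟨χ, hχ⟩ : ∃ χ, X.erase (triv G) = {χ} := by
    rw [← Finset.card_eq_one, Finset.card_erase_of_mem htX, hXc]
  have hχX : χ ∈ X := by
    have : χ ∈ X.erase (triv G) := by rw [hχ]; exact Finset.mem_singleton_self _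
    exact Finset.mem_of_mem_erase this
  have hχt : χ ≠ triv G := by
    have : χ ∈ X.erase (triv G) := by rw [hχ]; exact Finset.mem_singleton_self _
    exact Finset.ne_of_mem_erase this
  rw [← Finset.add_sum_erase _ _ htX, hχ, Finset.sum_singleton, hδt, deg_triv] at hrel
  rw [← Finset.add_sum_erase _ _ htX, hχ, Finset.sum_singleton, deg_triv, hYc6, hcard] at hsq
  have hf1 : charDegree (χ : G → ℂ) ≠ 1 := fun h => hχt (lin_triv hG h)
  have hfd := H10.BlockGreen.charDegree_dvd_card χ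
  rw [hcard] at hfd
  obtain ⟨hδ, -, kf, hkf⟩ := hX χ hχX
  have hgd : g ∣ 3744 := by
    obtain ⟨θ, hθ⟩ := Finset.card_pos.1 (by omega : 0 < Y.card)
    have := H10.BlockGreen.charDegree_dvd_card θ
    rw [hY θ hθ, hcard] at this
    exact this
  set f := charDegree (χ : G → ℂ) with hfdef
  clear_value f
  have hg24 : g ≤ 24 := by
    by_contra hlt
    push Not at hlt
    have : 25 ^ 2 ≤ g ^ 2 := Nat.pow_le_pow_left hlt 2
    omega
  clear hsq
  have hf25 : f ≤ 25 := by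
    rcases hε with h | h <;> rcases hδ with h' | h' <;> rw [h, h'] at hrel <;> omega
  have hfc : f = 12 := by
    rcases hδ with h' | h' <;> rw [h'] at hkf <;> interval_cases f <;> omega
  rcases hε with h | h <;> rcases hδ with h' | h' <;> rw [h, h'] at hrel <;> rw [h] at hg <;> rw [h'] at hkf <;>
    interval_cases g <;> omega

end Cfsg.Agent.H13.BrDeg
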