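import Mathlib
import Cfsg.Prelude.Def_Blocks
import Cfsg.Agent.H3_CharComplete

/-! Multiplicities of the linear characters of a cyclic subgroup of order `q` (after H9_BrVec). -/

set_option autoImplicit false
set_option linter.unusedSectionVars false

namespace Cfsg.Agent.H13.CPa

open Cfsg Cfsg.Agent.H3.CharIrr Cfsg.Agent.H3.CharComplete Cfsg.Agent.H3.CharBasic
open scoped ComplexConjugate

variable {G : Type*} [Group G] [Fintype G] {q : ℕ} [NeZero q]

/-- powers indexed by residues -/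
def zp (q : ℕ) (z : G) (i : ZMod q) : G := z ^ i.val

theorem zp_zero (z : G) : zp q z 0 = 1 := by
  unfold zp; rw [ZMod.val_zero, pow_zero]

theorem zp_add {z : G} (hz : z ^ q = 1) (i j : ZMod q) : zp q z (i + j) = zp q z i * zp q z j := by
  unfold zp
  rw [ZMod.val_add, ← pow_add]
  have := pow_mod_orderOf z (i.val + j.val)
  conv_lhs => rw [← pow_mod_orderOf]
  conv_rhs => rw [← pow_mod_orderOf]
  rw [Nat.mod_mod_of_dvd _ (orderOf_dvd_of_pow_eq_one hz)]

theorem zp_one {z : G} (hz : z ^ q = 1) : zp q z 1 = z := by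
  have h1 : ((1 : ℕ) : ZMod q) = 1 := Nat.cast_one
  have h2 : zp q z ((1 : ℕ) : ZMod q) = z ^ 1 := by
    unfold zp
    rw [ZMod.val_natCast]
    conv_lhs => rw [← pow_mod_orderOf]
    conv_rhs => rw [← pow_mod_orderOf]
    rw [Nat.mod_mod_of_dvd _ (orderOf_dvd_of_pow_eq_one hz)]
  rw [← h1, h2, pow_one]

theorem zp_neg {z : G} (hz : z ^ q = 1) (i : ZMod q) : zp q z (-i) = (zp q z i)⁻¹ := by
  rw [eq_inv_iff_mul_eq_one, ← zp_add hz, neg_add_cancel, zp_zero]

theorem zp_natCast {z : G} (hz : z ^ q = 1) (n : ℕ) : zp q z (n : ZMod q) = z ^ n := by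
  unfold zp
  rw [ZMod.val_natCast]
  conv_lhs => rw [← pow_mod_orderOf]
  conv_rhs => rw [← pow_mod_orderOf]
  rw [Nat.mod_mod_of_dvd _ (orderOf_dvd_of_pow_eq_one hz)]

theorem zp_mul {z : G} (hz : z ^ q = 1) (i j : ZMod q) : zp q z (i * j) = (zp q z i) ^ j.val := by
  have h1 : i * j = ((i.val * j.val : ℕ) : ZMod q) := by
    push_cast
    rw [ZMod.natCast_zmod_val, ZMod.natCast_zmod_val]
  rw [h1, zp_natCast hz, pow_mul]; rfl

theorem zp_injective {z : G} (hz : orderOf z = q) : Function.Injective (zp q z) := by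
  intro i j h
  unfold zp at h
  have h1 := (pow_inj_mod.1 h)
  rw [hz, Nat.mod_eq_of_lt (ZMod.val_lt i), Nat.mod_eq_of_lt (ZMod.val_lt j)] at h1
  exact ZMod.val_injective q h1

theorem zp_eq_one {z : G} (hz : orderOf z = q) {i : ZMod q} : zp q z i = 1 ↔ i = 0 := by
  constructor
  · intro h
    exact zp_injective hz (by rw [h, zp_zero])
  · rintro rfl; exact zp_zero z

theorem mem_zpowers_iff {z : G} (hz : orderOf z = q) (x : G) :
    x ∈ Subgroup.zpowers z ↔ ∃ i : ZMod q, x = zp q z i := by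
  constructor
  · intro h
    classical
    rw [mem_zpowers_iff_mem_range_orderOf, Finset.mem_image] at h
    obtain ⟨n, -, rfl⟩ := h
    exact ⟨(n : ZMod q), (zp_natCast (by rw [← hz]; exact pow_orderOf_eq_one z) n).symm⟩
  · rintro ⟨i, rfl⟩
    exact Subgroup.pow_mem _ (Subgroup.mem_zpowers z) _

/-- the standard additive character -/
noncomputable def ee (q : ℕ) [NeZero q] (a : ZMod q) : ℂ := ZMod.stdAddChar a

theorem ee_add (a b : ZMod q) : ee q (a + b) = ee q a * ee q b := AddChar.map_add_eq_mul _ _ _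

theorem ee_zero : ee q (0 : ZMod q) = 1 := AddChar.map_zero_eq_one _

theorem ee_conj (a : ZMod q) : conj (ee q a) = ee q (-a) := by
  unfold ee
  rw [AddChar.map_neg_eq_conj]

theorem sum_ee (a : ZMod q) : ∑ i : ZMod q, ee q (a * i) = if a = 0 then (q : ℂ) else 0 := by
  have h1 := AddChar.sum_mulShift (R' := ℂ) a (ZMod.isPrimitive_stdAddChar q)
  rw [ZMod.card] at h1
  have h2 : ∑ i : ZMod q, ee q (a * i) = ((if a = 0 then q else 0 : ℕ) : ℂ) := by
    rw [← h1]
    refine Finset.sum_congr rfl fun i _ => ?_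
    unfold ee; rw [mul_comm]
  rw [h2]
  split_ifs <;> simp

/-- the homomorphism from the cyclic group of order q -/
def tau {z : G} (hz : z ^ q = 1) : Multiplicative (ZMod q) →* G where
  toFun i := zp q z i.toAdd
  map_one' := zp_zero z
  map_mul' _ _ := zp_add hz _ _

theorem comp_char {H : Type*} [Group H] (f : H →* G) {χ : G → ℂ} (hχ : IsCharacter G χ) :
    IsCharacter H (fun h => χ (f h)) := by
  obtain ⟨n, ρ, rfl⟩ := hχ
  exact ⟨n, ρ.comp f, rfl⟩

theorem linear_char {H : Type*} [Group H] (f : H →* ℂ) : IsCharacter H (fun h => f h) := by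
  let ρ : Representation ℂ H ℂ :=
    { toFun := fun h => f h • LinearMap.id
      map_one' := by rw [map_one, one_smul]; rfl
      map_mul' := fun a b => by
        ext; simp [mul_comm] }
  have h1 := isCharacter_of_rep ρ
  have h2 : ρ.character = fun h => f h := by
    funext h
    show LinearMap.trace ℂ ℂ (f h • LinearMap.id) = f h
    rw [map_smul, LinearMap.trace_id]; simp
  rwa [h2] at h1

/-- multiplicities are natural numbers -/
theorem exists_mult {z : G} (hz : z ^ q = 1) {χ : G → ℂ} (hχ : IsCharacter G χ) (a : ZMod q) :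
    ∃ n : ℕ, (n : ℂ) = (q : ℂ)⁻¹ * ∑ i : ZMod q, χ (zp q z i) * ee q (-(a * i)) := by
  let lam : Multiplicative (ZMod q) →* ℂ :=
    { toFun := fun i => ee q (a * i.toAdd)
      map_one' := by show ee q (a * 0) = 1; rw [mul_zero, ee_zero]
      map_mul' := fun i j => by
        show ee q (a * (i.toAdd + j.toAdd)) = _
        rw [mul_add, ee_add] }
  obtain ⟨n, hn⟩ := ci_char_nat (comp_char (tau hz) hχ) (linear_char lam)
  refine ⟨n, ?_⟩
  rw [← hn, classInner]
  have h1 : (Nat.card (Multiplicative (ZMod q)) : ℂ) = q := by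
    rw [Nat.card_eq_fintype_card, Fintype.card_multiplicative, ZMod.card]
  rw [h1]
  congr 1
  have h2 : ∀ i : Multiplicative (ZMod q), χ (tau hz i) * conj (lam i) =
      χ (zp q z i.toAdd) * ee q (-(a * i.toAdd)) := by
    intro i
    show χ (zp q z i.toAdd) * conj (ee q (a * i.toAdd)) = _
    rw [ee_conj]
  rw [Finset.sum_congr rfl fun i _ => h2 i]
  exact Fintype.sum_equiv (Multiplicative.toAdd (α := ZMod q)) _
    (fun i : ZMod q => χ (zp q z i) * ee q (-(a * i))) (fun i => rfl)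

section mult

variable {z : G} (hz : z ^ q = 1)

/-- the multiplicity of the a-th linear character -/
noncomputable def mu (χ : IrrCharacter G) (a : ZMod q) : ℕ :=
  (exists_mult hz (IsIrr.isCharacter χ.2) a).choose

theorem mu_eq (χ : IrrCharacter G) (a : ZMod q) :
    (mu hz χ a : ℂ) = (q : ℂ)⁻¹ * ∑ i : ZMod q, (χ : G → ℂ) (zp q z i) * ee q (-(a * i)) :=
  (exists_mult hz (IsIrr.isCharacter χ.2) a).choose_spec

theorem q_ne : (q : ℂ) ≠ 0 := Nat.cast_ne_zero.2 (NeZero.ne q)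

/-- Fourier inversion -/
theorem char_eq (χ : IrrCharacter G) (j : ZMod q) :
    (χ : G → ℂ) (zp q z j) = ∑ a : ZMod q, (mu hz χ a : ℂ) * ee q (a * j) := by
  have h1 : ∑ a : ZMod q, (mu hz χ a : ℂ) * ee q (a * j) =
      (q : ℂ)⁻¹ * ∑ i : ZMod q, (χ : G → ℂ) (zp q z i) * ∑ a : ZMod q, ee q (a * (j - i)) := by
    simp only [mu_eq]
    rw [Finset.mul_sum]
    simp only [Finset.mul_sum, Finset.sum_mul]
    rw [Finset.sum_comm]
    refine Finset.sum_congr rfl fun i _ => Finset.sum_congr rfl fun a _ => ?_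
    have : ee q (a * (j - i)) = ee q (-(a * i)) * ee q (a * j) := by
      rw [← ee_add]; congr 1; ring
    rw [this]; ring
  have h2 : ∀ i : ZMod q, ∑ a : ZMod q, ee q (a * (j - i)) = if i = j then (q : ℂ) else 0 := by
    intro i
    have h3 : ∀ a : ZMod q, ee q (a * (j - i)) = ee q ((j - i) * a) := fun a => by rw [mul_comm]
    rw [Finset.sum_congr rfl fun a _ => h3 a, sum_ee]
    by_cases h : i = j
    · rw [if_pos h, if_pos (by rw [h, sub_self])]
    · rw [if_neg h, if_neg (fun h' => h (sub_eq_zero.1 h').symm)]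
  rw [h1]
  simp only [h2, mul_ite, mul_zero]
  rw [Finset.sum_ite_eq' Finset.univ j, if_pos (Finset.mem_univ _)]
  field_simp [q_ne (q := q)]

/-- the multiplicity differences -/
noncomputable def vv (χ : IrrCharacter G) (a : ZMod q) : ℤ := mu hz χ 0 - mu hz χ a

theorem vv_zero (χ : IrrCharacter G) : vv hz χ 0 = 0 := by unfold vv; ring

theorem vv_eq (χ : IrrCharacter G) (a : ZMod q) :
    (vv hz χ a : ℂ) = (q : ℂ)⁻¹ * ∑ i : ZMod q, (χ : G → ℂ) (zp q z i) * (1 - ee q (-(a * i))) := by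
  unfold vv
  push_cast
  rw [mu_eq, mu_eq, ← mul_sub, ← Finset.sum_sub_distrib]
  congr 1
  refine Finset.sum_congr rfl fun i _ => ?_
  rw [zero_mul, neg_zero, ee_zero]; ring

/-- values on nontrivial powers -/
theorem char_eq_vv (χ : IrrCharacter G) {j : ZMod q} (hj : j ≠ 0) :
    (χ : G → ℂ) (zp q z j) = - ∑ a : ZMod q, (vv hz χ a : ℂ) * ee q (a * j) := by
  rw [char_eq hz χ j]
  have h1 : ∀ a : ZMod q, (mu hz χ a : ℂ) * ee q (a * j) =
      (mu hz χ 0 : ℂ) * ee q (j * a) - (vv hz χ a : ℂ) * ee q (a * j) := by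
    intro a
    unfold vv
    push_cast
    rw [mul_comm j a]; ring
  rw [Finset.sum_congr rfl fun a _ => h1 a, Finset.sum_sub_distrib, ← Finset.mul_sum, sum_ee, if_neg hj]
  ring

/-- the degree -/
theorem char_one_eq (χ : IrrCharacter G) :
    (χ : G → ℂ) 1 = (q : ℂ) * mu hz χ 0 - ∑ a : ZMod q, (vv hz χ a : ℂ) := by
  have h := char_eq hz χ 0
  rw [zp_zero] at h
  rw [h]
  simp only [mul_zero, ee_zero, mul_one, vv]
  push_cast
  rw [Finset.sum_sub_distrib, Finset.sum_const, Finset.card_univ, ZMod.card, nsmul_eq_mul]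
  ring

/-- the multiplicities only depend on the orbit -/
theorem mu_mul (χ : IrrCharacter G) (h : (ZMod q)ˣ)
    (hh : ∀ i : ZMod q, (χ : G → ℂ) (zp q z (h * i)) = (χ : G → ℂ) (zp q z i)) (a : ZMod q) :
    mu hz χ (h * a) = mu hz χ a := by
  have h1 : (mu hz χ (h * a) : ℂ) = mu hz χ a := by
    rw [mu_eq, mu_eq]
    congr 1
    refine Fintype.sum_equiv (Units.mulLeft h) _ _ fun i => ?_
    show _ = (χ : G → ℂ) (zp q z (h * i)) * ee q (-(a * (h * i)))
    rw [hh]
    congr 2; ring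
  exact_mod_cast h1

theorem vv_mul (χ : IrrCharacter G) (h : (ZMod q)ˣ)
    (hh : ∀ i : ZMod q, (χ : G → ℂ) (zp q z (h * i)) = (χ : G → ℂ) (zp q z i)) (a : ZMod q) :
    vv hz χ (h * a) = vv hz χ a := by
  unfold vv
  rw [mu_mul hz χ h hh]

open Classical in
/-- the Gram matrix -/
theorem gram (S : Finset (IrrCharacter G)) (H : Subgroup (ZMod q)ˣ)
    (hfree : ∀ h ∈ H, ∀ h' ∈ H, ∀ i : ZMod q, i ≠ 0 → (h : ZMod q) * i = (h' : ZMod q) * i → h = h')
    (hK : ∀ i j : ZMod q, i ≠ 0 → j ≠ 0 → ∑ χ ∈ S, (χ : G → ℂ) (zp q z i) * conj ((χ : G → ℂ) (zp q z j)) =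
      if (∃ h ∈ H, j = h * i) then (q : ℂ) else 0) {a b : ZMod q} (ha : a ≠ 0) (hb : b ≠ 0) :
    ∑ χ ∈ S, vv hz χ a * vv hz χ b = (Nat.card H : ℤ) + if (∃ h ∈ H, a = h * b) then 1 else 0 := by
  haveI : Fintype H := Fintype.ofFinite _
  have h0 : ((∑ χ ∈ S, vv hz χ a * vv hz χ b : ℤ) : ℂ) =
      (q : ℂ)⁻¹ * ((q : ℂ)⁻¹ * ∑ i : ZMod q, ∑ j : ZMod q, (1 - ee q (-(a * i))) * (1 - ee q (b * j)) *
        ∑ χ ∈ S, (χ : G → ℂ) (zp q z i) * conj ((χ : G → ℂ) (zp q z j))) := by
    push_cast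
    have h1 : ∀ χ ∈ S, (vv hz χ a : ℂ) * (vv hz χ b : ℂ) = (q : ℂ)⁻¹ * ((q : ℂ)⁻¹ *
        ∑ i : ZMod q, ∑ j : ZMod q, (1 - ee q (-(a * i))) * (1 - ee q (b * j)) *
          ((χ : G → ℂ) (zp q z i) * conj ((χ : G → ℂ) (zp q z j)))) := by
      intro χ _
      have h2 : (vv hz χ b : ℂ) = conj (vv hz χ b : ℂ) := by rw [map_intCast]
      rw [h2, vv_eq, vv_eq, map_mul, map_sum, map_inv₀, map_natCast]
      have h3 : ∀ j : ZMod q, conj ((χ : G → ℂ) (zp q z j) * (1 - ee q (-(b * j)))) =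
          conj ((χ : G → ℂ) (zp q z j)) * (1 - ee q (b * j)) := by
        intro j
        rw [map_mul, map_sub, map_one, ee_conj, neg_neg]
      rw [Finset.sum_congr rfl fun j _ => h3 j]
      rw [mul_mul_mul_comm, Finset.sum_mul_sum, mul_assoc]
      congr 2
      refine Finset.sum_congr rfl fun i _ => Finset.sum_congr rfl fun j _ => ?_
      ring
    rw [Finset.sum_congr rfl h1, ← Finset.mul_sum, ← Finset.mul_sum]
    congr 2
    rw [Finset.sum_comm]
    refine Finset.sum_congr rfl fun i _ => ?_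
    rw [Finset.sum_comm]
    refine Finset.sum_congr rfl fun j _ => ?_
    rw [Finset.mul_sum]
  have h1 : ∀ i j : ZMod q, (1 - ee q (-(a * i))) * (1 - ee q (b * j)) *
        ∑ χ ∈ S, (χ : G → ℂ) (zp q z i) * conj ((χ : G → ℂ) (zp q z j)) =
      if (∃ h ∈ H, j = h * i) then (q : ℂ) * ((1 - ee q (-(a * i))) * (1 - ee q (b * j))) else 0 := by
    intro i j
    by_cases hi : i = 0
    · subst hi
      rw [mul_zero, neg_zero, ee_zero]; simp
    · by_cases hj : j = 0
      · subst hj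
        rw [mul_zero, ee_zero]; simp
      · rw [hK i j hi hj]
        split_ifs <;> ring
  have h2 : ∀ i : ZMod q, ∑ j : ZMod q, (if (∃ h ∈ H, j = h * i) then
      (q : ℂ) * ((1 - ee q (-(a * i))) * (1 - ee q (b * j))) else 0) =
      ∑ h : H, (q : ℂ) * ((1 - ee q (-(a * i))) * (1 - ee q (b * (((h : (ZMod q)ˣ) : ZMod q) * i)))) := by
    intro i
    by_cases hi : i = 0
    · subst hi
      simp [ee_zero]
    · rw [← Finset.sum_filter]
      refine (Finset.sum_bij (fun (h : H) _ => ((h : (ZMod q)ˣ) : ZMod q) * i) ?_ ?_ ?_ ?_).symm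
      · intro h _
        rw [Finset.mem_filter]
        exact ⟨Finset.mem_univ _, h, h.2, rfl⟩
      · intro h _ h' _ heq
        exact Subtype.ext (hfree _ h.2 _ h'.2 i hi heq)
      · intro j hj
        rw [Finset.mem_filter] at hj
        obtain ⟨-, h, hh, rfl⟩ := hj
        exact ⟨⟨h, hh⟩, Finset.mem_univ _, rfl⟩
      · intro h _; rfl
  simp only [h1, h2] at h0
  rw [Finset.sum_comm] at h0
  have h3 : ∀ h : H, ∑ i : ZMod q, (q : ℂ) * ((1 - ee q (-(a * i))) *
      (1 - ee q (b * (((h : (ZMod q)ˣ) : ZMod q) * i)))) =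
      (q : ℂ) * (q * (1 + if a = ((h : (ZMod q)ˣ) : ZMod q) * b then 1 else 0)) := by
    intro h
    rw [← Finset.mul_sum]
    congr 1
    have h4 : ∀ i : ZMod q, (1 - ee q (-(a * i))) * (1 - ee q (b * (((h : (ZMod q)ˣ) : ZMod q) * i))) =
        ee q (0 * i) - ee q ((-a) * i) - ee q ((b * ((h : (ZMod q)ˣ) : ZMod q)) * i) +
          ee q ((((h : (ZMod q)ˣ) : ZMod q) * b - a) * i) := by
      intro i
      have e1 : ee q ((((h : (ZMod q)ˣ) : ZMod q) * b - a) * i) = ee q (-(a * i)) * ee q (b * (((h : (ZMod q)ˣ) : ZMod q) * i)) := by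
        rw [← ee_add]; congr 1; ring
      rw [e1, zero_mul, ee_zero, neg_mul, mul_assoc b]
      ring
    rw [Finset.sum_congr rfl fun i _ => h4 i, Finset.sum_add_distrib, Finset.sum_sub_distrib,
      Finset.sum_sub_distrib, sum_ee, sum_ee, sum_ee, sum_ee, if_pos rfl, if_neg (neg_ne_zero.2 ha),
      if_neg (fun h0 => hb ((h.1.isUnit.mul_left_eq_zero).1 h0))]
    by_cases hab : a = ((h : (ZMod q)ˣ) : ZMod q) * b
    · rw [if_pos (by rw [hab, sub_self]), if_pos hab]; ring
    · rw [if_neg (fun h' => hab (sub_eq_zero.1 h').symm), if_neg hab]; ring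
  rw [Finset.sum_congr rfl fun h _ => h3 h, ← Finset.mul_sum, ← Finset.mul_sum,
    Finset.sum_add_distrib, Finset.sum_const, Finset.card_univ] at h0
  have h5 : ∑ h : H, (if a = (((h : (ZMod q)ˣ) : ZMod q)) * b then (1:ℂ) else 0) =
      if (∃ h ∈ H, a = h * b) then 1 else 0 := by
    split_ifs with hex
    · obtain ⟨h, hh, rfl⟩ := hex
      rw [Finset.sum_eq_single ⟨h, hh⟩]
      · rw [if_pos rfl]
      · intro h' _ hne
        rw [if_neg]
        intro heq
        exact hne (Subtype.ext (hfree _ h'.2 _ hh b hb heq.symm))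
      · intro h; exact absurd (Finset.mem_univ _) h
    · apply Finset.sum_eq_zero
      intro h _
      rw [if_neg (fun h' => hex ⟨h, h.2, h'⟩)]
  rw [h5] at h0
  have h6 : ((∑ χ ∈ S, vv hz χ a * vv hz χ b : ℤ) : ℂ) =
      (((Nat.card H : ℤ) + if (∃ h ∈ H, a = h * b) then 1 else 0 : ℤ) : ℂ) := by
    rw [h0, Nat.card_eq_fintype_card]
    have hp0 := q_ne (q := q)
    push_cast
    rw [nsmul_eq_mul, mul_one]
    field_simp
  exact_mod_cast h6

end mult

end Cfsg.Agent.H13.CPa
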