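import Mathlib
import Cfsg.Agent.H13_CPa
import Cfsg.Agent.H9_BrMain
import Cfsg.Agent.H23_CycSyl

/-! Cyclic Sylow subgroups: fusion and block orthogonality. -/

set_option autoImplicit false
set_option linter.unusedSectionVars false

namespace Cfsg.Agent.H13.CPb

open Cfsg Cfsg.Agent Cfsg.Agent.H3.CharIrr Cfsg.Agent.H3.CharComplete Cfsg.Agent.H3.CharInd
  Cfsg.Agent.H3.CharBasic Cfsg.Agent.H10.BlockLoc Cfsg.Agent.H10.Char Cfsg.Agent.H10.PPart
  Cfsg.Agent.H10.BlockAlg Cfsg.Agent.H10.BlockIdem Cfsg.Agent.H10.BlockHZ Cfsg.Agent.H10.RegPart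
  Cfsg.Agent.H10.BlockOrth Cfsg.Agent.H10.BlockKer Cfsg.Agent.H10.BlockSMT2 Cfsg.Agent.H10.BlockV4
  Cfsg.Agent.H10.BlockCen Cfsg.Agent.H10.BlockPrin
  Cfsg.Agent.H13.CPa
open scoped ComplexConjugate

variable {G : Type*} [Group G] [Fintype G] {p : ℕ} [hp : Fact p.Prime] {M : Ideal AlgInt} {z : G}
  {q : ℕ} [NeZero q]

theorem zp_conj (hzq : z ^ q = 1) {g : G} {h : ZMod q} (hg : g * z * g⁻¹ = zp q z h) (i : ZMod q) :
    g * zp q z i * g⁻¹ = zp q z (h * i) := by
  rw [zp_mul hzq, ← hg, conj_pow]; rfl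

/-- the automizer of `⟨z⟩` as units -/
def HH (hz : orderOf z = q) : Subgroup (ZMod q)ˣ where
  carrier := {h | ∃ g : G, g * z * g⁻¹ = zp q z h}
  mul_mem' := by
    rintro a b ⟨g, hg⟩ ⟨k, hk⟩
    have hzq : z ^ q = 1 := by rw [← hz]; exact pow_orderOf_eq_one z
    refine ⟨g * k, ?_⟩
    have h1 : g * k * z * (g * k)⁻¹ = g * (k * z * k⁻¹) * g⁻¹ := by group
    rw [h1, hk, zp_conj hzq hg, Units.val_mul]
  one_mem' := ⟨1, by
    have hzq : z ^ q = 1 := by rw [← hz]; exact pow_orderOf_eq_one z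
    rw [Units.val_one, zp_one hzq]; simp⟩
  inv_mem' := by
    rintro a ⟨g, hg⟩
    have hzq : z ^ q = 1 := by rw [← hz]; exact pow_orderOf_eq_one z
    refine ⟨g⁻¹, ?_⟩
    have h1 := zp_conj hzq hg ((a⁻¹ : (ZMod q)ˣ) : ZMod q)
    rw [Units.mul_inv, zp_one hzq] at h1
    rw [inv_inv]
    have : zp q z ((a⁻¹ : (ZMod q)ˣ) : ZMod q) = g⁻¹ * (g * zp q z ((a⁻¹ : (ZMod q)ˣ) : ZMod q) * g⁻¹) * g := by group
    rw [this, h1]

theorem mem_HH (hz : orderOf z = q) {h : (ZMod q)ˣ} : h ∈ HH hz ↔ ∃ g : G, g * z * g⁻¹ = zp q z h := Iff.rfl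

section free

variable (P : Sylow p G) (hPz : Subgroup.zpowers z = (P : Subgroup G)) (hz : orderOf z = q) {n : ℕ} (hq : q = p ^ n)

include P hPz hq in
/-- an element of the automizer congruent to one mod `p` is one -/
theorem HH_eq_one {h : (ZMod q)ˣ} (hh : h ∈ HH hz) (h1 : (p : ℤ) ∣ ((h : ZMod q).val : ℤ) - 1) : h = 1 := by
  have hzq : z ^ q = 1 := by rw [← hz]; exact pow_orderOf_eq_one z
  obtain ⟨g, hg⟩ := hh
  have h2 : g * z * g⁻¹ = z ^ (((h : ZMod q).val : ℕ) : ℤ) := by rw [hg, zpow_natCast]; rfl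
  have h3 := H23.CycSyl.centralizes P hPz h2 h1
  have h4 : Commute g z := by
    have h5 : z ∈ (P : Subgroup G) := by rw [← hPz]; exact Subgroup.mem_zpowers z
    exact (Subgroup.mem_centralizer_iff.1 h3 z h5).symm
  have h6 : g * z * g⁻¹ = z := by rw [h4.eq, mul_inv_cancel_right]
  rw [h6] at hg
  have h7 : zp q z 1 = zp q z h := by rw [zp_one hzq]; exact hg
  exact Units.ext (zp_injective hz h7).symm

include hq in
theorem dvd_of_mul_eq {k : ZMod q} {i : ZMod q} (hi : i ≠ 0) (h : k * i = i) : (p : ℤ) ∣ ((k : ZMod q).val : ℤ) - 1 := by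
  by_contra hcon
  apply hi
  have h1 : ((((k.val : ℤ) - 1) * (i.val : ℤ) : ℤ) : ZMod q) = 0 := by
    push_cast
    rw [ZMod.natCast_zmod_val, ZMod.natCast_zmod_val, sub_mul, one_mul, h, sub_self]
  rw [ZMod.intCast_zmod_eq_zero_iff_dvd] at h1
  have h2 : IsCoprime (q : ℤ) ((k.val : ℤ) - 1) := by
    have h0 : (q : ℤ) = (p : ℤ) ^ n := by exact_mod_cast hq
    rw [h0]
    apply IsCoprime.pow_left
    exact (Nat.prime_iff_prime_int.1 hp.out).coprime_iff_not_dvd.2 hcon
  have h3 := h2.dvd_of_dvd_mul_left h1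
  have h4 : q ∣ i.val := by exact_mod_cast h3
  have h5 := Nat.eq_zero_of_dvd_of_lt h4 (ZMod.val_lt i)
  exact (ZMod.val_eq_zero i).1 h5

include P hPz hq in
theorem HH_free : ∀ h ∈ HH hz, ∀ h' ∈ HH hz, ∀ i : ZMod q, i ≠ 0 → (h : ZMod q) * i = (h' : ZMod q) * i → h = h' := by
  intro h hh h' hh' i hi heq
  have h1 : h'⁻¹ * h ∈ HH hz := (HH hz).mul_mem ((HH hz).inv_mem hh') hh
  have h2 : ((h'⁻¹ * h : (ZMod q)ˣ) : ZMod q) * i = i := by
    rw [Units.val_mul, mul_assoc, heq, ← mul_assoc, Units.inv_mul, one_mul]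
  have h3 := HH_eq_one P hPz hz hq h1 (dvd_of_mul_eq hq hi h2)
  rw [inv_mul_eq_one] at h3
  exact h3.symm

include P hPz in
theorem isConj_iff_HH {i j : ZMod q} (hi : i ≠ 0) :
    IsConj (zp q z i) (zp q z j) ↔ ∃ h ∈ HH hz, j = (h : ZMod q) * i := by
  have hzq : z ^ q = 1 := by rw [← hz]; exact pow_orderOf_eq_one z
  constructor
  · intro h
    obtain ⟨a, ha⟩ := isConj_iff.1 h
    haveI hcom : IsMulCommutative (P : Subgroup G) := by
      have : IsCyclic (P : Subgroup G) := by rw [← hPz]; infer_instance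
      exact ⟨⟨fun x y => by
        letI := this.commGroup
        exact mul_comm x y⟩⟩
    have hmem : ∀ k : ZMod q, zp q z k ∈ (P : Subgroup G) := fun k => by
      rw [← hPz]; exact Subgroup.pow_mem _ (Subgroup.mem_zpowers z) _
    obtain ⟨m, hm, hm2⟩ := P.conj_eq_normalizer_conj_of_mem (zp q z i) a⁻¹ (hmem i) (by
      rw [inv_inv, ha]; exact hmem j)
    rw [inv_inv, ha] at hm2
    -- `m⁻¹` normalises
    have h1 : m⁻¹ * z * m⁻¹⁻¹ ∈ (P : Subgroup G) :=
      (Subgroup.mem_normalizer_iff.1 ((Subgroup.normalizer (P : Set G)).inv_mem hm) z).1 (by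
        rw [← hPz]; exact Subgroup.mem_zpowers z)
    rw [← hPz] at h1
    obtain ⟨l, hl⟩ := (mem_zpowers_iff hz _).1 h1
    -- `l` is a unit
    have hlu : IsUnit l := by
      have h2 : m * z * m⁻¹ ∈ (P : Subgroup G) :=
        (Subgroup.mem_normalizer_iff.1 hm z).1 (by rw [← hPz]; exact Subgroup.mem_zpowers z)
      rw [← hPz] at h2
      obtain ⟨l', hl'⟩ := (mem_zpowers_iff hz _).1 h2
      have h3 := zp_conj hzq hl' l
      rw [← hl] at h3
      have h4 : m * (m⁻¹ * z * m⁻¹⁻¹) * m⁻¹ = z := by group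
      rw [h4] at h3
      have h5 : zp q z 1 = zp q z (l' * l) := by rw [zp_one hzq]; exact h3
      exact IsUnit.of_mul_eq_one_right l' (zp_injective hz h5).symm
    refine ⟨hlu.unit, ⟨m⁻¹, hl⟩, ?_⟩
    apply zp_injective hz
    have h6 := zp_conj hzq hl i
    rw [IsUnit.unit_spec, ← h6, hm2, inv_inv]
  · rintro ⟨h, ⟨g, hg⟩, rfl⟩
    rw [← zp_conj hzq hg]
    exact isConj_iff.2 ⟨g, rfl⟩

include P hPz hz hq in
theorem complement {i : ZMod q} (hi : i ≠ 0) :
    ∃ K : Subgroup (Subgroup.centralizer ({zp q z i} : Set G)), K.Normal ∧ ¬ p ∣ Nat.card K ∧ K.index = q := by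
  have hcyc : IsCyclic (P : Subgroup G) := by rw [← hPz]; infer_instance
  set Q := Subgroup.zpowers (zp q z i) with hQ
  have hQP : Q ≤ P := by
    rw [← hPz, hQ, Subgroup.zpowers_le]
    exact Subgroup.pow_mem _ (Subgroup.mem_zpowers z) _
  have hQb : Q ≠ ⊥ := by
    rw [hQ, Ne, Subgroup.zpowers_eq_bot, zp_eq_one hz]; exact hi
  obtain ⟨hPC, hnpc⟩ := H23.CycSyl.npc_centralizer P hcyc Q hQP hQb
  have hC : Subgroup.centralizer (Q : Set G) = Subgroup.centralizer ({zp q z i} : Set G) := by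
    rw [hQ, Subgroup.zpowers_eq_closure, Subgroup.centralizer_closure]
  rw [hC] at hPC hnpc
  obtain ⟨K, hKn, hKc, k, hk⟩ := H2.Basic.npc_iff.1 hnpc
  refine ⟨K, hKn, hKc, ?_⟩
  -- compare the p-parts
  let T : Sylow p (Subgroup.centralizer ({zp q z i} : Set G)) := P.subtype hPC
  have hT : Nat.card (T : Subgroup (Subgroup.centralizer ({zp q z i} : Set G))) = q := by
    have h1 := Nat.card_congr (Subgroup.subgroupOfEquivOfLe hPC).toEquiv
    have h2 : Nat.card (P : Subgroup G) = q := by rw [← hPz, Nat.card_zpowers, hz]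
    exact h1.trans h2
  have h3 := T.card_eq_multiplicity
  have h4 : (Nat.card (Subgroup.centralizer ({zp q z i} : Set G))).factorization p = k := by
    rw [← K.card_mul_index, hk, Nat.factorization_mul Nat.card_pos.ne' (pow_ne_zero _ hp.out.ne_zero),
      Finsupp.add_apply, Nat.factorization_eq_zero_of_not_dvd hKc, hp.out.factorization_pow]
    simp
  rw [hk, ← hT, h3, h4]

include hq in
theorem zp_order (hzq : z ^ q = 1) (i : ZMod q) : ∃ k : ℕ, orderOf (zp q z i) = p ^ k := by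
  have h1 : orderOf (zp q z i) ∣ p ^ n := by
    rw [← hq]
    apply orderOf_dvd_of_pow_eq_one
    change (z ^ i.val) ^ q = 1
    rw [← pow_mul, mul_comm, pow_mul, hzq, one_pow]
  obtain ⟨k, -, hk⟩ := (Nat.dvd_prime_pow hp.out).1 h1
  exact ⟨k, hk⟩

open Classical in
/-- characters of the principal block are constant on sections -/
theorem section_const (hM : IsPModular p M) {χ : IrrCharacter G} (hχ : χ ∈ principalBlock M G)
    (P : Sylow p G) (hPz : Subgroup.zpowers z = (P : Subgroup G)) (hz : orderOf z = q) (hq : q = p ^ n)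
    {i : ZMod q} (hi : i ≠ 0) {y : G} (hy : y ∈ Subgroup.centralizer ({zp q z i} : Set G))
    (hyp : ¬ p ∣ orderOf y) : (χ : G → ℂ) (zp q z i * y) = (χ : G → ℂ) (zp q z i) := by
  have hzq : z ^ q = 1 := by rw [← hz]; exact pow_orderOf_eq_one z
  haveI : Fintype (Subgroup.centralizer ({zp q z i} : Set G)) := Fintype.ofFinite _
  haveI : Fintype (IrrCharacter (Subgroup.centralizer ({zp q z i} : Set G))) := Fintype.ofFinite _
  obtain ⟨K, hK, hKp, hKi⟩ := complement P hPz hz hq hi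
  have hyp' : ¬ p ∣ orderOf (⟨y, hy⟩ : Subgroup.centralizer ({zp q z i} : Set G)) := by
    rwa [Subgroup.orderOf_mk]
  have h1p : ¬ p ∣ orderOf (1 : Subgroup.centralizer ({zp q z i} : Set G)) := by
    rw [orderOf_one]; intro h; exact hp.out.one_lt.ne' (Nat.dvd_one.1 h)
  have h1 := principal_blockPart hM hχ (zp_order hq hzq i) ⟨y, hy⟩ hyp'
  have h2 := principal_blockPart hM hχ (zp_order hq hzq i) 1 h1p
  have h3 : (χ : G → ℂ) (zp q z i * ((1 : Subgroup.centralizer ({zp q z i} : Set G)) : G)) =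
      (χ : G → ℂ) (zp q z i) := by rw [Subgroup.coe_one, mul_one]
  rw [← h3, h2]
  refine h1.trans ?_
  unfold blockPart
  refine finsum_congr fun ψ => finsum_congr fun hψ => ?_
  have h4 := principal_ker hM K hKp hψ
  have h5 := h4 _ (regular_mem hM.1 ⟨n, by rw [hKi, hq]⟩ hyp')
  rw [h5]

open Classical in
/-- the kernel function of the principal block -/
theorem kerF (hM : IsPModular p M) [Fintype (IrrCharacter G)]
    (P : Sylow p G) (hPz : Subgroup.zpowers z = (P : Subgroup G)) (hz : orderOf z = q) (hq : q = p ^ n)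
    {i : ZMod q} (hi : i ≠ 0) {g x : G} (hgx : IsPPart p g x) :
    ∑ χ : IrrCharacter G, (if χ ∈ principalBlock M G then
      (χ : G → ℂ) g * conj ((χ : G → ℂ) (zp q z i)) else 0) =
      if IsConj x (zp q z i) then (q : ℂ) else 0 := by
  haveI := hM.2.1
  have hzq : z ^ q = 1 := by rw [← hz]; exact pow_orderOf_eq_one z
  have hself : IsPPart p (zp q z i) (zp q z i) :=
      ⟨1, mul_one _, Commute.one_right _, zp_order hq hzq i, by
        rw [orderOf_one]; intro h; exact hp.out.one_lt.ne' (Nat.dvd_one.1 h)⟩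
  split_ifs with h
  · -- reduce to `x = z^i`
    obtain ⟨a, ha⟩ := isConj_iff.1 h
    obtain ⟨y, hxy, hcom, -, hyr⟩ := hgx
    have hval : ∀ χ : IrrCharacter G, χ ∈ principalBlock M G → (χ : G → ℂ) g = (χ : G → ℂ) (zp q z i) := by
      intro χ hχ
      have h1 : (χ : G → ℂ) g = (χ : G → ℂ) (a * g * a⁻¹) := by rw [irr_class χ.2]
      have h2 : a * g * a⁻¹ = zp q z i * (a * y * a⁻¹) := by
        rw [← ha, ← hxy]; group
      rw [h1, h2]
      refine section_const hM hχ P hPz hz hq hi ?_ ?_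
      · rw [Subgroup.mem_centralizer_singleton_iff, ← ha]
        have : x * y = y * x := hcom
        calc a * y * a⁻¹ * (a * x * a⁻¹) = a * (y * x) * a⁻¹ := by group
          _ = a * (x * y) * a⁻¹ := by rw [this]
          _ = a * x * a⁻¹ * (a * y * a⁻¹) := by group
      · rwa [H24.Tools.orderOf_conj]
    obtain ⟨K, hK, hKp, hKi⟩ := complement P hPz hz hq hi
    have h1 := principal_norm_compl hM (zp_order hq hzq i) hK hKp ⟨n, by rw [hKi, hq]⟩ 1 (by
      rw [orderOf_one]; intro h; exact hp.out.one_lt.ne' (Nat.dvd_one.1 h))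
    rw [hKi] at h1
    rw [← h1]
    refine Finset.sum_congr rfl fun χ _ => ?_
    split_ifs with hχ
    · rw [hval χ hχ, Subgroup.coe_one, mul_one]
    · rfl
  · have h1 := block_orth hM hgx hself h (principal_isPBlock (M := M) (G := G))
    refine Eq.trans (Finset.sum_congr rfl fun χ _ => ?_) h1
    rw [IsChar.inv_eq_conj (isChar_of_irr χ.2)]

open Classical in
/-- the kernel of the principal block on P -/
theorem kernel (hM : IsPModular p M) [Fintype (IrrCharacter G)]
    (P : Sylow p G) (hPz : Subgroup.zpowers z = (P : Subgroup G)) (hz : orderOf z = q) (hq : q = p ^ n)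
    (i j : ZMod q) (hi : i ≠ 0) (hj : j ≠ 0) :
    ∑ χ : IrrCharacter G, (if χ ∈ principalBlock M G then
      (χ : G → ℂ) (zp q z i) * conj ((χ : G → ℂ) (zp q z j)) else 0) =
      if (∃ h ∈ HH hz, j = (h : ZMod q) * i) then (q : ℂ) else 0 := by
  have hzq : z ^ q = 1 := by rw [← hz]; exact pow_orderOf_eq_one z
  have hself : IsPPart p (zp q z i) (zp q z i) :=
      ⟨1, mul_one _, Commute.one_right _, zp_order hq hzq i, by
        rw [orderOf_one]; intro h; exact hp.out.one_lt.ne' (Nat.dvd_one.1 h)⟩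
  rw [kerF hM P hPz hz hq hj hself, ← if_congr (isConj_iff_HH P hPz hz hi (j := j)) rfl rfl]

end free

end Cfsg.Agent.H13.CPb
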