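import Mathlib

/-! The star lemma. -/

set_option autoImplicit false

namespace Cfsg.Agent.H13.CPc

variable {B : Type*} [Fintype B] [DecidableEq B]

theorem sq_le_one {x : ℤ} (h : x ^ 2 ≤ 1) : x = 0 ∨ x = 1 ∨ x = -1 := by
  have h1 : x ≤ 1 := by nlinarith
  have h2 : -1 ≤ x := by nlinarith
  omega

theorem single_le (d : B → ℤ) (s : B) : d s ^ 2 ≤ ∑ u, d u ^ 2 :=
  Finset.single_le_sum (f := fun u => d u ^ 2) (fun u _ => sq_nonneg _) (Finset.mem_univ s)

/-- vectors of norm one -/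
theorem P1 {d : B → ℤ} (h : ∑ u, d u ^ 2 = 1) : ∃ s, (d s = 1 ∨ d s = -1) ∧ ∀ u, u ≠ s → d u = 0 := by
  have hex : ∃ s, d s ≠ 0 := by
    by_contra hcon
    push Not at hcon
    rw [Finset.sum_eq_zero (fun u _ => by rw [hcon u]; rfl)] at h
    exact absurd h (by norm_num)
  obtain ⟨s, hs⟩ := hex
  have h1 : d s ^ 2 ≤ 1 := h ▸ single_le d s
  have h2 : d s = 1 ∨ d s = -1 := by
    rcases sq_le_one h1 with h3 | h3 | h3
    · exact absurd h3 hs
    · exact Or.inl h3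
    · exact Or.inr h3
  refine ⟨s, h2, fun u hu => ?_⟩
  have h3 : d s ^ 2 + d u ^ 2 ≤ ∑ u, d u ^ 2 := by
    rw [← Finset.sum_pair hu.symm (f := fun u => d u ^ 2)]
    exact Finset.sum_le_sum_of_subset_of_nonneg (Finset.subset_univ _) (fun v _ _ => sq_nonneg _)
  have h4 : d s ^ 2 = 1 := by rcases h2 with h | h <;> rw [h] <;> norm_num
  have h5 : d u ^ 2 ≤ 0 := by linarith
  exact pow_eq_zero_iff (two_ne_zero) |>.1 (le_antisymm h5 (sq_nonneg _))

/-- vectors of norm two -/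
theorem P2 {d : B → ℤ} (h : ∑ u, d u ^ 2 = 2) : ∃ s t, s ≠ t ∧ (d s = 1 ∨ d s = -1) ∧ (d t = 1 ∨ d t = -1) ∧
    ∀ u, u ≠ s → u ≠ t → d u = 0 := by
  have hex : ∃ s, d s ≠ 0 := by
    by_contra hcon
    push Not at hcon
    rw [Finset.sum_eq_zero (fun u _ => by rw [hcon u]; rfl)] at h
    exact absurd h (by norm_num)
  have hpm : ∀ s, d s ≠ 0 → d s = 1 ∨ d s = -1 := by
    intro s hs
    have h1 : d s ^ 2 ≤ 2 := h ▸ single_le d s
    have h2 : d s ≤ 1 := by nlinarith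
    have h3 : -1 ≤ d s := by nlinarith
    omega
  obtain ⟨s, hs⟩ := hex
  have hs1 := hpm s hs
  have hs2 : d s ^ 2 = 1 := by rcases hs1 with h | h <;> rw [h] <;> norm_num
  -- remove `s`
  have h1 : ∑ u, (if u = s then 0 else d u) ^ 2 = 1 := by
    have h2 : ∀ u, (if u = s then 0 else d u) ^ 2 = d u ^ 2 - if u = s then d s ^ 2 else 0 := by
      intro u
      by_cases hu : u = s
      · rw [if_pos hu, if_pos hu, hu]; ring
      · rw [if_neg hu, if_neg hu]; ring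
    rw [Finset.sum_congr rfl fun u _ => h2 u, Finset.sum_sub_distrib, h, Finset.sum_ite_eq' Finset.univ s,
      if_pos (Finset.mem_univ _), hs2]
    norm_num
  obtain ⟨t, ht, hu⟩ := P1 h1
  have hts : t ≠ s := by
    rintro rfl
    rw [if_pos rfl] at ht
    omega
  rw [if_neg hts] at ht
  refine ⟨s, t, hts.symm, hs1, ht, fun u hus hut => ?_⟩
  have := hu u hut
  rwa [if_neg hus] at this

theorem ip2 {d d' : B → ℤ} {s t : B} (hst : s ≠ t) (h : ∀ u, u ≠ s → u ≠ t → d u = 0) :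
    ∑ u, d u * d' u = d s * d' s + d t * d' t := by
  rw [← Finset.sum_pair hst (f := fun u => d u * d' u)]
  symm
  apply Finset.sum_subset (Finset.subset_univ _)
  intro u _ hu
  rw [Finset.mem_insert, Finset.mem_singleton, not_or] at hu
  rw [h u hu.1 hu.2, zero_mul]

/-- the star lemma -/
theorem star {A : Type*} (r : A → A → Prop) [DecidableRel r] (hr : Equivalence r) (c : A → B → ℤ) (e : ℤ)
    (hG : ∀ a b, ∑ χ, c a χ * c b χ = e + if r a b then 1 else 0)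
    (a₀ a₁ a₂ : A) (h01 : ¬ r a₀ a₁) (h02 : ¬ r a₀ a₂) (h12 : ¬ r a₁ a₂) :
    ∃ w : B → ℤ, ∀ a, ∑ χ, (w χ - c a χ) ^ 2 = 1 := by
  have hself : ∀ a, ∑ χ, c a χ * c a χ = e + 1 := fun a => by rw [hG, if_pos (hr.refl a)]
  have hN : ∀ a, ¬ r a₀ a → ∑ χ, (c a₀ χ - c a χ) ^ 2 = 2 := by
    intro a ha
    have h1 : ∀ χ, (c a₀ χ - c a χ) ^ 2 = c a₀ χ * c a₀ χ - 2 * (c a₀ χ * c a χ) + c a χ * c a χ := fun χ => by ring
    rw [Finset.sum_congr rfl fun χ _ => h1 χ, Finset.sum_add_distrib, Finset.sum_sub_distrib, ← Finset.mul_sum,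
      hself, hself, hG, if_neg ha]
    ring
  have hI : ∀ a b, ¬ r a₀ a → ¬ r a₀ b → ¬ r a b → ∑ χ, (c a₀ χ - c a χ) * (c a₀ χ - c b χ) = 1 := by
    intro a b ha hb hab
    have h1 : ∀ χ, (c a₀ χ - c a χ) * (c a₀ χ - c b χ) =
        c a₀ χ * c a₀ χ - c a₀ χ * c b χ - c a₀ χ * c a χ + c a χ * c b χ := fun χ => by ring
    rw [Finset.sum_congr rfl fun χ _ => h1 χ, Finset.sum_add_distrib, Finset.sum_sub_distrib, Finset.sum_sub_distrib,
      hself, hG, hG, hG, if_neg ha, if_neg hb, if_neg hab]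
    ring
  have hC : ∀ a, ¬ r a₀ a → ∑ χ, (c a₀ χ - c a χ) * c a₀ χ = 1 := by
    intro a ha
    have h1 : ∀ χ, (c a₀ χ - c a χ) * c a₀ χ = c a₀ χ * c a₀ χ - c a₀ χ * c a χ := fun χ => by ring
    rw [Finset.sum_congr rfl fun χ _ => h1 χ, Finset.sum_sub_distrib, hself, hG, if_neg ha]
    ring
  have hvals : ∀ a, ¬ r a₀ a → ∀ χ, c a₀ χ - c a χ = 0 ∨ c a₀ χ - c a χ = 1 ∨ c a₀ χ - c a χ = -1 := by
    intro a ha χ
    have h1 : (c a₀ χ - c a χ) ^ 2 ≤ 2 := (hN a ha) ▸ single_le (fun χ => c a₀ χ - c a χ) χ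
    have h2 : c a₀ χ - c a χ ≤ 1 := by nlinarith
    have h3 : -1 ≤ c a₀ χ - c a χ := by nlinarith
    omega
  -- equality on classes
  have hcl : ∀ a b, r a b → c a = c b := by
    intro a b hab
    have h1 : ∑ χ, (c a χ - c b χ) ^ 2 = 0 := by
      have h1 : ∀ χ, (c a χ - c b χ) ^ 2 = c a χ * c a χ - 2 * (c a χ * c b χ) + c b χ * c b χ := fun χ => by ring
      rw [Finset.sum_congr rfl fun χ _ => h1 χ, Finset.sum_add_distrib, Finset.sum_sub_distrib, ← Finset.mul_sum,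
        hself, hself, hG, if_pos hab]
      ring
    rw [Finset.sum_eq_zero_iff_of_nonneg (fun χ _ => sq_nonneg _)] at h1
    funext χ
    have := h1 χ (Finset.mem_univ χ)
    exact sub_eq_zero.1 (pow_eq_zero_iff (two_ne_zero) |>.1 this)
  -- the common coordinate
  obtain ⟨s, t, hst, hs, ht, hz⟩ := P2 (hN a₁ h01)
  have h12' := hI a₁ a₂ h01 h02 h12
  rw [ip2 hst hz] at h12'
  obtain ⟨m, s₁, hm1, hms, hmv, hs1v, hz1, h2m, h2s⟩ : ∃ m s₁ : B, (c a₀ m - c a₁ m = 1 ∨ c a₀ m - c a₁ m = -1) ∧ m ≠ s₁ ∧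
      True ∧ (c a₀ s₁ - c a₁ s₁ = 1 ∨ c a₀ s₁ - c a₁ s₁ = -1) ∧ (∀ u, u ≠ m → u ≠ s₁ → c a₀ u - c a₁ u = 0) ∧
      c a₀ m - c a₂ m = c a₀ m - c a₁ m ∧ c a₀ s₁ - c a₂ s₁ = 0 := by
    rcases hvals a₂ h02 s with h1 | h1 | h1 <;> rcases hvals a₂ h02 t with h2 | h2 | h2 <;>
      rcases hs with h3 | h3 <;> rcases ht with h4 | h4 <;> rw [h1, h2, h3, h4] at h12' <;>
      first
      | (exfalso; omega)
      | exact ⟨s, t, by omega, hst, trivial, by omega, hz, by omega, by omega⟩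
      | exact ⟨t, s, by omega, hst.symm, trivial, by omega, fun u h5 h6 => hz u h6 h5, by omega, by omega⟩
  set σ := c a₀ m - c a₁ m with hσ
  -- the second vector
  obtain ⟨s₂, hms2, hs2v, hz2⟩ : ∃ s₂ : B, m ≠ s₂ ∧ (c a₀ s₂ - c a₂ s₂ = 1 ∨ c a₀ s₂ - c a₂ s₂ = -1) ∧
      (∀ u, u ≠ m → u ≠ s₂ → c a₀ u - c a₂ u = 0) := by
    obtain ⟨s', t', hst', hs', ht', hz'⟩ := P2 (hN a₂ h02)
    by_cases h1 : m = s'
    · subst h1
      exact ⟨t', hst', ht', hz'⟩
    · by_cases h2 : m = t'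
      · subst h2
        exact ⟨s', h1, hs', fun u h5 h6 => hz' u h6 h5⟩
      · have := hz' m h1 h2
        omega
  have key : ∀ a, ¬ r a₀ a → c a₀ m - c a m = σ := by
    intro a ha
    by_cases ha1 : r a₁ a
    · rw [← hcl a₁ a ha1]
    by_cases ha2 : r a₂ a
    · rw [← hcl a₂ a ha2, h2m]
    have i1 := hI a₁ a h01 ha ha1
    have i2 := hI a₂ a h02 ha ha2
    rw [ip2 hms hz1] at i1
    rw [ip2 hms2 hz2] at i2
    have j1 := hC a₁ h01
    have j2 := hC a₂ h02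
    rw [ip2 hms hz1] at j1
    rw [ip2 hms2 hz2] at j2
    have hs12 : s₁ ≠ s₂ := by
      rintro rfl
      omega
    rw [← hσ] at i1 j1
    rw [h2m] at i2 j2
    rcases hvals a ha m with h1 | h1 | h1
    · -- zero: parity
      exfalso
      rw [h1, mul_zero, zero_add] at i1 i2
      have hz3 : ∀ u, u ≠ s₁ → u ≠ s₂ → c a₀ u - c a u = 0 := by
        obtain ⟨s', t', hst', hs', ht', hz'⟩ := P2 (hN a ha)
        intro u hu1 hu2
        apply hz'
        · rintro rfl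
          by_cases h5 : s₁ = t'
          · by_cases h6 : s₂ = t'
            · exact hs12 (h5.trans h6.symm)
            · have := hz' s₂ (Ne.symm hu2) h6
              rw [this, mul_zero] at i2; omega
          · have := hz' s₁ (Ne.symm hu1) h5
            rw [this, mul_zero] at i1; omega
        · rintro rfl
          by_cases h5 : s₁ = s'
          · by_cases h6 : s₂ = s'
            · exact hs12 (h5.trans h6.symm)
            · have := hz' s₂ h6 (Ne.symm hu2)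
              rw [this, mul_zero] at i2; omega
          · have := hz' s₁ h5 (Ne.symm hu1)
            rw [this, mul_zero] at i1; omega
      have j3 := hC a ha
      rw [ip2 hs12 hz3] at j3
      rcases hs1v with h3 | h3 <;> rcases hs2v with h4 | h4 <;> rw [h3] at i1 j1 <;> rw [h4] at i2 j2 <;>
        rcases hm1 with h5 | h5 <;> rw [h5] at j1 j2 <;>
        rcases hvals a ha s₁ with h6 | h6 | h6 <;> rw [h6] at i1 j3 <;>
        rcases hvals a ha s₂ with h7 | h7 | h7 <;> rw [h7] at i2 j3 <;> omega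
    · rcases hm1 with h5 | h5
      · rw [h1, h5]
      · exfalso
        rw [h1, h5] at i1
        rcases hs1v with h3 | h3 <;> rw [h3] at i1 <;> rcases hvals a ha s₁ with h6 | h6 | h6 <;> rw [h6] at i1 <;> omega
    · rcases hm1 with h5 | h5
      · exfalso
        rw [h1, h5] at i1
        rcases hs1v with h3 | h3 <;> rw [h3] at i1 <;> rcases hvals a ha s₁ with h6 | h6 | h6 <;> rw [h6] at i1 <;> omega
      · rw [h1, h5]
  -- conclusion
  have hσ2 : σ ^ 2 = 1 := by rcases hm1 with h | h <;> rw [h] <;> norm_num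
  refine ⟨fun χ => c a₀ χ - if χ = m then σ else 0, fun a => ?_⟩
  by_cases ha : r a₀ a
  · have h1 : ∀ χ, (c a₀ χ - (if χ = m then σ else 0) - c a χ) ^ 2 = if χ = m then σ ^ 2 else 0 := by
      intro χ
      rw [← hcl a₀ a ha]
      by_cases hχ : χ = m
      · rw [if_pos hχ, if_pos hχ]; ring
      · rw [if_neg hχ, if_neg hχ]; ring
    rw [Finset.sum_congr rfl fun χ _ => h1 χ, Finset.sum_ite_eq' Finset.univ m, if_pos (Finset.mem_univ _), hσ2]
  · have h1 : ∀ χ, (c a₀ χ - (if χ = m then σ else 0) - c a χ) ^ 2 =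
        (c a₀ χ - c a χ) ^ 2 - if χ = m then σ ^ 2 else 0 := by
      intro χ
      by_cases hχ : χ = m
      · rw [if_pos hχ, if_pos hχ, hχ, ← key a ha]; ring
      · rw [if_neg hχ, if_neg hχ]; ring
    rw [Finset.sum_congr rfl fun χ _ => h1 χ, Finset.sum_sub_distrib, hN a ha, Finset.sum_ite_eq' Finset.univ m,
      if_pos (Finset.mem_univ _), hσ2]
    norm_num

end Cfsg.Agent.H13.CPc
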