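import Mathlib
import Cfsg.Agent.H13_CPb
import Cfsg.Agent.H13_CPc
import Cfsg.Agent.H9_BrThm

/-! Cyclic Sylow subgroups: the structure of the principal block. -/

set_option autoImplicit false
set_option linter.unusedSectionVars false

namespace Cfsg.Agent.H13.CPd

open Cfsg Cfsg.Agent Cfsg.Agent.H3.CharIrr Cfsg.Agent.H3.CharComplete Cfsg.Agent.H3.CharInd
  Cfsg.Agent.H3.CharBasic Cfsg.Agent.H10.BlockLoc Cfsg.Agent.H10.Char Cfsg.Agent.H10.PPart
  Cfsg.Agent.H10.BlockAlg Cfsg.Agent.H10.BlockIdem Cfsg.Agent.H10.BlockHZ Cfsg.Agent.H10.RegPart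
  Cfsg.Agent.H10.BlockOrth Cfsg.Agent.H10.BlockKer Cfsg.Agent.H10.BlockSMT2 Cfsg.Agent.H10.BlockV4
  Cfsg.Agent.H10.BlockCen Cfsg.Agent.H10.BlockPrin
  Cfsg.Agent.H13.CPa Cfsg.Agent.H13.CPb
open scoped ComplexConjugate

/-- the combinatorics -/
theorem comb {X A : Type*} [DecidableEq X] (S : Finset X) (r : A → A → Prop) [DecidableRel r] (c : A → X → ℤ)
    (e : ℤ) (hG : ∀ a b, ∑ χ ∈ S, c a χ * c b χ = e + if r a b then 1 else 0) (hrefl : ∀ a, r a a)
    (w : X → ℤ) (L : A → X) (τ : A → ℤ) (hLS : ∀ a, L a ∈ S) (hτ : ∀ a, τ a = 1 ∨ τ a = -1)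
    (hc : ∀ a, ∀ χ ∈ S, c a χ = w χ - if χ = L a then τ a else 0)
    (t : X) (ht : t ∈ S) (hct : ∀ a, c a t = 1) (he : 0 ≤ e)
    {ι : Type*} [Fintype ι] (f : ι → A) (hf : ∀ i j, r (f i) (f j) → i = j) (hcard : e + 2 ≤ Fintype.card ι) :
    (∀ a b, r a b ↔ L a = L b) ∧ (∀ a, w (L a) = 0) ∧ w t = 1 ∧ (∀ a, L a ≠ t) := by
  classical
  have hsum : ∀ a b, ∑ χ ∈ S, c a χ * c b χ = ∑ χ ∈ S, w χ ^ 2 - τ b * w (L b) - τ a * w (L a) +
      if L a = L b then τ a * τ b else 0 := by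
    intro a b
    have h1 : ∀ χ ∈ S, c a χ * c b χ = w χ ^ 2 - (if χ = L b then τ b * w (L b) else 0) -
        (if χ = L a then τ a * w (L a) else 0) + (if χ = L a then (if L a = L b then τ a * τ b else 0) else 0) := by
      intro χ hχ
      rw [hc a χ hχ, hc b χ hχ]
      by_cases h1 : χ = L a
      · subst h1
        rw [if_pos rfl, if_pos rfl, if_pos rfl]
        by_cases h2 : L a = L b
        · rw [if_pos h2, if_pos h2, if_pos h2, h2]; ring
        · rw [if_neg h2, if_neg h2, if_neg h2]; ring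
      · rw [if_neg h1, if_neg h1, if_neg h1]
        by_cases h2 : χ = L b
        · subst h2
          rw [if_pos rfl, if_pos rfl]; ring
        · rw [if_neg h2, if_neg h2]; ring
    rw [Finset.sum_congr rfl h1, Finset.sum_add_distrib, Finset.sum_sub_distrib, Finset.sum_sub_distrib,
      Finset.sum_ite_eq' S, if_pos (hLS b), Finset.sum_ite_eq' S, if_pos (hLS a), Finset.sum_ite_eq' S, if_pos (hLS a)]
  have hττ : ∀ a, τ a * τ a = 1 := by
    intro a; rcases hτ a with h | h <;> rw [h] <;> norm_num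
  have hom : ∀ a, 2 * (τ a * w (L a)) = ∑ χ ∈ S, w χ ^ 2 - e := by
    intro a
    have h1 := hsum a a
    rw [hG, if_pos (hrefl a), if_pos rfl, hττ] at h1
    linarith
  have hiff : ∀ a b, r a b ↔ L a = L b := by
    intro a b
    have h1 := hsum a b
    rw [hG] at h1
    have h2 := hom a
    have h3 := hom b
    by_cases h4 : r a b
    · rw [if_pos h4] at h1
      refine ⟨fun _ => ?_, fun _ => h4⟩
      by_contra h5
      rw [if_neg h5] at h1
      omega
    · rw [if_neg h4] at h1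
      refine ⟨fun h => absurd h h4, fun h5 => ?_⟩
      rw [if_pos h5] at h1
      rcases hτ a with h6 | h6 <;> rcases hτ b with h7 | h7 <;> rw [h6, h7] at h1 <;> rw [h6] at h2 <;>
        rw [h7] at h3 <;> omega
  have hinj : Function.Injective (L ∘ f) := fun i j hij => hf i j ((hiff _ _).2 hij)
  have hcard2 : 1 < Fintype.card ι := by omega
  obtain ⟨i, j, hij⟩ := Fintype.exists_pair_of_one_lt_card hcard2
  have hLt : ∀ a, L a ≠ t := by
    intro a hat
    obtain ⟨b, hb⟩ : ∃ b, L b ≠ t := by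
      by_contra hcon
      push Not at hcon
      exact hij (hinj ((hcon (f i)).trans (hcon (f j)).symm))
    have h1 := hc a t ht
    have h2 := hc b t ht
    rw [hct, if_pos hat.symm] at h1
    rw [hct, if_neg (Ne.symm hb)] at h2
    rcases hτ a with h | h <;> omega
  have hwt : w t = 1 := by
    have h1 := hc (f i) t ht
    rw [hct, if_neg (Ne.symm (hLt _))] at h1
    omega
  refine ⟨hiff, ?_, hwt, hLt⟩
  -- `ω = 0`
  set ω := τ (f i) * w (L (f i)) with hω
  have hconst : ∀ a, τ a * w (L a) = ω := by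
    intro a
    have h1 := hom a
    have h2 := hom (f i)
    omega
  have hsq : ∀ a, w (L a) ^ 2 = ω ^ 2 := by
    intro a
    rw [← hconst a, mul_pow, sq (τ a), hττ, one_mul]
  have hω0 : ω = 0 := by
    by_contra hne
    have hω1 : 1 ≤ ω ^ 2 := by
      have := sq_pos_of_ne_zero hne
      omega
    have h1 : w t ^ 2 + ∑ k : ι, w (L (f k)) ^ 2 ≤ ∑ χ ∈ S, w χ ^ 2 := by
      have h2 : ∑ k : ι, w (L (f k)) ^ 2 = ∑ χ ∈ Finset.univ.image (L ∘ f), w χ ^ 2 := by
        rw [Finset.sum_image (fun a _ b _ h => hinj h)]; rfl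
      have ht' : t ∉ Finset.univ.image (L ∘ f) := by
        rw [Finset.mem_image]
        rintro ⟨k, -, hk⟩
        exact hLt _ hk
      rw [h2, ← Finset.sum_insert ht' (f := fun χ => w χ ^ 2)]
      apply Finset.sum_le_sum_of_subset_of_nonneg
      · intro χ hχ
        rcases Finset.mem_insert.1 hχ with rfl | hχ
        · exact ht
        · obtain ⟨k, -, rfl⟩ := Finset.mem_image.1 hχ
          exact hLS _
      · intro _ _ _; exact sq_nonneg _
    rw [hwt, Finset.sum_congr rfl (fun k _ => hsq (f k)), Finset.sum_const, Finset.card_univ, nsmul_eq_mul] at h1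
    have h3 := hom (f i)
    rw [← hω] at h3
    have h4 : (e + 2) * ω ^ 2 ≤ (Fintype.card ι : ℤ) * ω ^ 2 := mul_le_mul_of_nonneg_right hcard (sq_nonneg _)
    have h5 : 0 ≤ e * (ω ^ 2 - 1) := mul_nonneg he (by omega)
    nlinarith [sq_nonneg (ω - 1)]
  intro a
  have h1 := hsq a
  rw [hω0] at h1
  exact pow_eq_zero_iff (two_ne_zero) |>.1 (by rw [h1]; norm_num)

variable {G : Type*} [Group G] [Fintype G] {p : ℕ} [hp : Fact p.Prime] {M : Ideal AlgInt} {z : G}
  {q : ℕ} [NeZero q]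

section gen

theorem class_HH (hz : orderOf z = q) (χ : IrrCharacter G) {h : (ZMod q)ˣ} (hh : h ∈ HH hz)
    (i : ZMod q) : (χ : G → ℂ) (zp q z (h * i)) = (χ : G → ℂ) (zp q z i) := by
  have hzq : z ^ q = 1 := by rw [← hz]; exact pow_orderOf_eq_one z
  obtain ⟨g, hg⟩ := hh
  rw [← zp_conj hzq hg, irr_class χ.2]

theorem vv_triv (hzq : z ^ q = 1) {a : ZMod q} (ha : a ≠ 0) : vv hzq (triv G) a = 1 := by
  have h1 : (vv hzq (triv G) a : ℂ) = 1 := by
    rw [vv_eq]
    simp only [triv_coe, one_mul]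
    have h2 : ∀ i : ZMod q, (1 - ee q (-((a : ZMod q) * i))) = ee q (0 * i) - ee q ((-(a : ZMod q)) * i) := by
      intro i
      rw [zero_mul, ee_zero, neg_mul]
    rw [Finset.sum_congr rfl fun i _ => h2 i, Finset.sum_sub_distrib, sum_ee, sum_ee, if_pos rfl,
      if_neg (neg_ne_zero.2 ha), sub_zero, inv_mul_cancel₀ (q_ne (q := q))]
  exact_mod_cast h1

theorem dvd_order {n : ℕ} (hz : orderOf z = q) (hq : q = p ^ n) {i : ZMod q} (hi : i ≠ 0) : p ∣ orderOf (zp q z i) := by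
  have hzq : z ^ q = 1 := by rw [← hz]; exact pow_orderOf_eq_one z
  obtain ⟨k, hk⟩ := zp_order hq hzq i
  rw [hk]
  refine dvd_pow_self p ?_
  rintro rfl
  rw [pow_zero, orderOf_eq_one_iff, zp_eq_one hz] at hk
  exact hi hk

open Classical in
/-- orthogonality of the multiplicity vectors to p-regular elements -/
theorem vv_regular (hM : IsPModular p M) [Fintype (IrrCharacter G)] {n : ℕ} (hz : orderOf z = q) (hq : q = p ^ n)
    (hzq : z ^ q = 1)
    (a : ZMod q) {g : G} (hg : ¬ p ∣ orderOf g) :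
    ∑ χ : IrrCharacter G, (if χ ∈ principalBlock M G then (vv hzq χ a : ℂ) * (χ : G → ℂ) g else 0) = 0 := by
  haveI := hM.2.1
  have h1 : ∀ χ : IrrCharacter G, (if χ ∈ principalBlock M G then (vv hzq χ a : ℂ) * (χ : G → ℂ) g else 0) =
      (q : ℂ)⁻¹ * ∑ i : ZMod q, (1 - ee q (-(a * i))) *
        (if χ ∈ principalBlock M G then (χ : G → ℂ) (zp q z i) * (χ : G → ℂ) g else 0) := by
    intro χ
    split_ifs
    · rw [vv_eq, mul_assoc, Finset.sum_mul]
      congr 1
      refine Finset.sum_congr rfl fun i _ => ?_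
      ring
    · simp
  rw [Finset.sum_congr rfl fun χ _ => h1 χ, ← Finset.mul_sum, Finset.sum_comm]
  have h2 : ∀ i : ZMod q, ∑ χ : IrrCharacter G, (1 - ee q (-(a * i))) *
        (if χ ∈ principalBlock M G then (χ : G → ℂ) (zp q z i) * (χ : G → ℂ) g else 0) = 0 := by
    intro i
    rw [← Finset.mul_sum]
    by_cases hi : i = 0
    · subst hi
      rw [mul_zero, neg_zero, ee_zero, sub_self, zero_mul]
    · rw [weak_orth' hM (principal_isPBlock (M := M) (G := G)) g (zp q z i) hg (dvd_order hz hq hi), mul_zero]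
  rw [Finset.sum_eq_zero fun i _ => h2 i, mul_zero]

open Classical in
theorem gramH (hM : IsPModular p M) [Fintype (IrrCharacter G)]
    (P : Sylow p G) (hPz : Subgroup.zpowers z = (P : Subgroup G)) (hz : orderOf z = q) {n : ℕ} (hq : q = p ^ n)
    (hzq : z ^ q = 1) {a b : ZMod q} (ha : a ≠ 0) (hb : b ≠ 0) :
    ∑ χ ∈ Finset.univ.filter (fun χ : IrrCharacter G => χ ∈ principalBlock M G), vv hzq χ a * vv hzq χ b =
      (Nat.card (HH hz) : ℤ) + if (∃ h ∈ HH hz, a = h * b) then 1 else 0 := by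
  have h1 := gram hzq (Finset.univ.filter (fun χ : IrrCharacter G => χ ∈ principalBlock M G)) (HH hz)
    (HH_free P hPz hz hq) (by
      intro i j hi hj
      rw [Finset.sum_filter]
      exact kernel hM P hPz hz hq i j hi hj) ha hb
  exact h1

theorem proj_val (hpq : p ∣ q) (h : ZMod q) (h1 : ZMod.castHom hpq (ZMod p) h = 1) :
    (p : ℤ) ∣ (h.val : ℤ) - 1 := by
  rw [← ZMod.intCast_zmod_eq_zero_iff_dvd]
  push_cast
  rw [ZMod.castHom_apply, ZMod.cast_eq_val] at h1
  rw [h1, sub_self]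

theorem card_HH_le (P : Sylow p G) (hPz : Subgroup.zpowers z = (P : Subgroup G)) (hz : orderOf z = q) {n : ℕ}
    (hq : q = p ^ n) (hn : 1 ≤ n) : Nat.card (HH hz) ≤ p - 1 := by
  have hpq : p ∣ q := by rw [hq]; exact dvd_pow_self p (by omega)
  have h1 : Nat.card (ZMod p)ˣ = p - 1 := by
    rw [Nat.card_eq_fintype_card, ZMod.card_units]
  rw [← h1]
  let f : HH hz →* (ZMod p)ˣ := (Units.map (ZMod.castHom hpq (ZMod p) : ZMod q →* ZMod p)).comp (HH hz).subtype
  apply Nat.card_le_card_of_injective f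
  rw [injective_iff_map_eq_one]
  intro h hh
  have h2 := congrArg Units.val hh
  have h3 : ZMod.castHom hpq (ZMod p) ((h : (ZMod q)ˣ) : ZMod q) = 1 := h2
  exact Subtype.ext (HH_eq_one P hPz hz hq h.2 (proj_val hpq _ h3))

end gen

open Classical in
/-- the structure of the principal block -/
structure Str (M : Ideal AlgInt) (hzq : z ^ q = 1) where
  w : IrrCharacter G → ℤ
  L : ZMod q → IrrCharacter G
  τ : ℤ
  hτ : τ = 1 ∨ τ = -1
  hc : ∀ χ ∈ principalBlock M G, ∀ a : ZMod q, a ≠ 0 → vv hzq χ a = w χ - if χ = L a then τ else 0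
  hL : ∀ a : ZMod q, a ≠ 0 → L a ∈ principalBlock M G
  hwL : ∀ a : ZMod q, a ≠ 0 → w (L a) = 0
  hwt : w (triv G) = 1

end Cfsg.Agent.H13.CPd
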