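import Mathlib
import Cfsg.Agent.H13_CPd

/-! Cyclic Sylow subgroups: existence of the structure of the principal block. -/

set_option autoImplicit false
set_option linter.unusedSectionVars false

namespace Cfsg.Agent.H13.CPe

open Cfsg Cfsg.Agent Cfsg.Agent.H3.CharIrr Cfsg.Agent.H3.CharComplete Cfsg.Agent.H3.CharInd
  Cfsg.Agent.H3.CharBasic Cfsg.Agent.H10.BlockLoc Cfsg.Agent.H10.Char Cfsg.Agent.H10.PPart
  Cfsg.Agent.H10.BlockAlg Cfsg.Agent.H10.BlockIdem Cfsg.Agent.H10.BlockHZ Cfsg.Agent.H10.RegPart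
  Cfsg.Agent.H10.BlockOrth Cfsg.Agent.H10.BlockKer Cfsg.Agent.H10.BlockSMT2 Cfsg.Agent.H10.BlockV4
  Cfsg.Agent.H10.BlockCen Cfsg.Agent.H10.BlockPrin
  Cfsg.Agent.H13.CPa Cfsg.Agent.H13.CPb Cfsg.Agent.H13.CPd
open scoped ComplexConjugate

variable {G : Type*} [Group G] [Fintype G] {p : ℕ} [hp : Fact p.Prime] {M : Ideal AlgInt} {z : G}
  {q : ℕ} [NeZero q]

/-- representatives of orbits -/
def uu (p q : ℕ) : Option (Fin p) → ZMod q
  | none => (p : ZMod q)
  | some k => ((1 + p * k : ℕ) : ZMod q)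

theorem uu_ne {n : ℕ} (hq : q = p ^ n) (hn : 2 ≤ n) (o : Option (Fin p)) : uu p q o ≠ 0 := by
  have hpq : p ^ 2 ≤ q := by rw [hq]; exact Nat.pow_le_pow_right hp.out.pos hn
  have hp2 := hp.out.two_le
  cases o with
  | none =>
    intro h
    have h1 : ((p : ℕ) : ZMod q) = 0 := h
    rw [ZMod.natCast_eq_zero_iff] at h1
    have h2 := Nat.le_of_dvd hp.out.pos h1
    nlinarith
  | some k =>
    intro h
    have h1 : ((1 + p * k : ℕ) : ZMod q) = 0 := h
    rw [ZMod.natCast_eq_zero_iff] at h1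
    have h2 : p ∣ 1 + p * k := (dvd_trans (by rw [hq]; exact dvd_pow_self p (by omega)) h1)
    have h3 : p ∣ 1 := (Nat.dvd_add_left (dvd_mul_right p _)).1 h2
    exact hp.out.one_lt.ne' (Nat.dvd_one.1 h3)

theorem uu_inj (P : Sylow p G) (hPz : Subgroup.zpowers z = (P : Subgroup G)) (hz : orderOf z = q) {n : ℕ}
    (hq : q = p ^ n) (hn : 2 ≤ n) (i j : Option (Fin p)) (h : ∃ h ∈ HH hz, uu p q i = (h : ZMod q) * uu p q j) :
    i = j := by
  have hpq : p ∣ q := by rw [hq]; exact dvd_pow_self p (by omega)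
  have hpq2 : p ^ 2 ≤ q := by rw [hq]; exact Nat.pow_le_pow_right hp.out.pos hn
  obtain ⟨h, hh, heq⟩ := h
  set π := ZMod.castHom hpq (ZMod p) with hπ
  have h1 := congrArg π heq
  rw [map_mul] at h1
  have hn' : π (uu p q none) = 0 := by
    change π ((p : ℕ) : ZMod q) = 0
    rw [map_natCast, ZMod.natCast_self]
  have hs : ∀ k, π (uu p q (some k)) = 1 := by
    intro k
    change π ((1 + p * k : ℕ) : ZMod q) = 1
    rw [map_natCast]
    push_cast
    rw [ZMod.natCast_self, zero_mul, add_zero]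
  have hu : π (h : ZMod q) ≠ 0 := (h.isUnit.map π).ne_zero
  cases i with
  | none =>
    cases j with
    | none => rfl
    | some k =>
      rw [hn', hs, mul_one] at h1
      exact absurd h1.symm hu
  | some k =>
    cases j with
    | none =>
      rw [hn', hs, mul_zero] at h1
      exact absurd h1 one_ne_zero
    | some l =>
      rw [hs, hs, mul_one] at h1
      have h2 := HH_eq_one P hPz hz hq hh (proj_val hpq _ h1.symm)
      rw [h2, Units.val_one, one_mul] at heq
      have h3 : ((1 + p * k : ℕ) : ZMod q) = ((1 + p * l : ℕ) : ZMod q) := heq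
      have hlt : ∀ m : Fin p, 1 + p * (m : ℕ) < q := by
        intro m
        have h4 : (m : ℕ) + 1 ≤ p := m.2
        have h5 := hp.out.two_le
        have h6 : p * ((m : ℕ) + 1) ≤ p * p := Nat.mul_le_mul_left p h4
        nlinarith
      have h4 := congrArg ZMod.val h3
      rw [ZMod.val_natCast_of_lt (hlt k), ZMod.val_natCast_of_lt (hlt l)] at h4
      have h5 : p * (k : ℕ) = p * (l : ℕ) := by omega
      have h6 := Nat.eq_of_mul_eq_mul_left hp.out.pos h5
      rw [Fin.ext h6]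

theorem exists_two (hM : IsPModular p M)
    (P : Sylow p G) (hPz : Subgroup.zpowers z = (P : Subgroup G)) (hz : orderOf z = q) {n : ℕ}
    (hq : q = p ^ n) (hn : 2 ≤ n) (hzq : z ^ q = 1) : Nonempty (Str (q := q) M hzq) := by
  classical
  haveI := hM.2.1
  haveI : Fintype (IrrCharacter G) := Fintype.ofFinite _
  set S := Finset.univ.filter (fun χ : IrrCharacter G => χ ∈ principalBlock M G) with hS
  let A := {a : ZMod q // a ≠ 0}
  let r : A → A → Prop := fun a b => ∃ h ∈ HH hz, (a : ZMod q) = (h : ZMod q) * b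
  have hr : Equivalence r := by
    refine ⟨fun a => ⟨1, one_mem _, by rw [Units.val_one, one_mul]⟩, ?_, ?_⟩
    · rintro a b ⟨h, hh, heq⟩
      exact ⟨h⁻¹, inv_mem hh, by rw [heq, ← mul_assoc, Units.inv_mul, one_mul]⟩
    · rintro a b c ⟨h, hh, heq⟩ ⟨h', hh', heq'⟩
      exact ⟨h * h', mul_mem hh hh', by rw [heq, heq', Units.val_mul, mul_assoc]⟩
  let f : Option (Fin p) → A := fun o => ⟨uu p q o, uu_ne hq hn o⟩
  have hf : ∀ i j, r (f i) (f j) → i = j := fun i j h => uu_inj P hPz hz hq hn i j h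
  have hgram : ∀ a b : A, ∑ χ ∈ S, vv hzq χ a.1 * vv hzq χ b.1 =
      (Nat.card (HH hz) : ℤ) + if r a b then 1 else 0 := by
    intro a b
    have := gramH hM P hPz hz hq hzq a.2 b.2
    rw [← hS] at this
    rw [this]
  obtain ⟨w', hw'⟩ := Cfsg.Agent.H13.CPc.star (B := S) r hr (fun a χ => vv hzq χ.1 a.1) (Nat.card (HH hz))
    (by
      intro a b
      rw [← hgram a b, ← Finset.sum_coe_sort S])
    (f (some ⟨0, hp.out.pos⟩)) (f (some ⟨1, hp.out.one_lt⟩)) (f none)
    (fun h => by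
      have := hf _ _ h
      rw [Option.some.injEq, Fin.mk.injEq] at this
      exact absurd this (by norm_num))
    (fun h => by have := hf _ _ h; exact absurd this (by simp))
    (fun h => by have := hf _ _ h; exact absurd this (by simp))
  have hP1 := fun a => Cfsg.Agent.H13.CPc.P1 (hw' a)
  choose s hs hs' using hP1
  let w : IrrCharacter G → ℤ := fun χ => if h : χ ∈ S then w' ⟨χ, h⟩ else 0
  have hwS : ∀ χ (h : χ ∈ S), w χ = w' ⟨χ, h⟩ := fun χ h => dif_pos h
  let L : A → IrrCharacter G := fun a => (s a).1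
  let τ : A → ℤ := fun a => w' (s a) - vv hzq (s a).1 a.1
  have hc : ∀ a : A, ∀ χ ∈ S, vv hzq χ a.1 = w χ - if χ = L a then τ a else 0 := by
    intro a χ hχ
    rw [hwS χ hχ]
    by_cases h : χ = L a
    · rw [if_pos h]
      have h1 : (⟨χ, hχ⟩ : S) = s a := Subtype.ext h
      rw [h1, h]
      change vv hzq (s a).1 a.1 = w' (s a) - (w' (s a) - vv hzq (s a).1 a.1)
      ring
    · rw [if_neg h, sub_zero]
      have h1 := hs' a ⟨χ, hχ⟩ (fun h2 => h (congrArg Subtype.val h2))
      change w' ⟨χ, hχ⟩ - vv hzq χ a.1 = 0 at h1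
      linarith
  have htS : triv G ∈ S := Finset.mem_filter.2 ⟨Finset.mem_univ _, triv_mem⟩
  have hcard : (Nat.card (HH hz) : ℤ) + 2 ≤ Fintype.card (Option (Fin p)) := by
    rw [Fintype.card_option, Fintype.card_fin]
    have h1 := card_HH_le P hPz hz hq (by omega)
    have h2 := hp.out.one_le
    omega
  obtain ⟨hLL, hwL, hwt, hLt⟩ := comb S r (fun a χ => vv hzq χ a.1) (Nat.card (HH hz)) hgram hr.refl w L τ
    (fun a => (s a).2) hs hc (triv G) htS (fun a => vv_triv hzq a.2) (by positivity) f hf hcard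
  -- degrees
  have h1p : ¬ p ∣ orderOf (1 : G) := by
    rw [orderOf_one]; intro h; exact hp.out.one_lt.ne' (Nat.dvd_one.1 h)
  have hdeg : ∀ a : A, (τ a : ℂ) * (L a : G → ℂ) 1 = ∑ χ ∈ S, (w χ : ℂ) * (χ : G → ℂ) 1 := by
    intro a
    have h1 := vv_regular hM hz hq hzq a.1 h1p
    rw [← Finset.sum_filter, ← hS] at h1
    have h2 : ∀ χ ∈ S, (vv hzq χ a.1 : ℂ) * (χ : G → ℂ) 1 = (w χ : ℂ) * (χ : G → ℂ) 1 -
        if χ = L a then (τ a : ℂ) * (L a : G → ℂ) 1 else 0 := by
      intro χ hχ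
      rw [hc a χ hχ]
      by_cases h : χ = L a
      · rw [if_pos h, if_pos h, h]; push_cast; ring
      · rw [if_neg h, if_neg h]; push_cast; ring
    rw [Finset.sum_congr rfl h2, Finset.sum_sub_distrib, Finset.sum_ite_eq' S, if_pos (s a).2] at h1
    linear_combination -h1
  have hτc : ∀ a b, τ a = τ b := by
    intro a b
    have h1 := (hdeg a).trans (hdeg b).symm
    obtain ⟨n, hn0, hn⟩ := irr_one (L a).2
    obtain ⟨m, hm0, hm⟩ := irr_one (L b).2
    rw [hn, hm] at h1
    have h2 : τ a * n = τ b * m := by exact_mod_cast h1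
    rcases hs a with h | h <;> rcases hs b with h' | h'
    · exact h.trans h'.symm
    · have e1 : τ a = 1 := h
      have e2 : τ b = -1 := h'
      rw [e1, e2] at h2; omega
    · have e1 : τ a = -1 := h
      have e2 : τ b = 1 := h'
      rw [e1, e2] at h2; omega
    · exact h.trans h'.symm
  let a0 : A := f none
  exact ⟨{
    w := w
    L := fun a => if h : a ≠ 0 then L ⟨a, h⟩ else triv G
    τ := τ a0
    hτ := hs a0
    hc := by
      intro χ hχ a ha
      rw [dif_pos ha, hτc a0 ⟨a, ha⟩]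
      exact hc ⟨a, ha⟩ χ (Finset.mem_filter.2 ⟨Finset.mem_univ _, hχ⟩)
    hL := by
      intro a ha
      rw [dif_pos ha]
      exact (Finset.mem_filter.1 (s ⟨a, ha⟩).2).2
    hwL := by
      intro a ha
      rw [dif_pos ha]
      exact hwL ⟨a, ha⟩
    hwt := hwt }⟩

end Cfsg.Agent.H13.CPe
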