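import Mathlib
import Cfsg.Agent.H13_CPe

/-! Sylow subgroups of order p: the structure of the principal block. -/

set_option autoImplicit false
set_option linter.unusedSectionVars false

namespace Cfsg.Agent.H13.CPf

open Cfsg Cfsg.Agent Cfsg.Agent.H3.CharIrr Cfsg.Agent.H3.CharComplete Cfsg.Agent.H3.CharInd
  Cfsg.Agent.H3.CharBasic Cfsg.Agent.H10.BlockLoc Cfsg.Agent.H10.Char Cfsg.Agent.H10.PPart
  Cfsg.Agent.H10.BlockAlg Cfsg.Agent.H10.BlockIdem Cfsg.Agent.H10.BlockHZ Cfsg.Agent.H10.RegPart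
  Cfsg.Agent.H10.BlockOrth Cfsg.Agent.H10.BlockKer Cfsg.Agent.H10.BlockSMT2 Cfsg.Agent.H10.BlockV4
  Cfsg.Agent.H10.BlockCen Cfsg.Agent.H10.BlockPrin
  Cfsg.Agent.H13.CPa Cfsg.Agent.H13.CPb Cfsg.Agent.H13.CPd
open scoped ComplexConjugate

variable {G : Type*} [Group G] [Fintype G] {p : ℕ} [hp : Fact p.Prime] {M : Ideal AlgInt} {z : G}

theorem vv_same (hzp : z ^ p = 1) (χ : IrrCharacter G) (a : ZMod p) :
    vv hzp χ a = H9.BrVec.vv hzp χ a := by
  have h1 : (vv hzp χ a : ℂ) = (H9.BrVec.vv hzp χ a : ℂ) := by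
    rw [vv_eq, H9.BrVec.vv_eq]
    rfl
  exact_mod_cast h1

theorem exists_one (hM : IsPModular p M) (hz : orderOf z = p) (hzp : z ^ p = 1)
    (hsyl : ¬ p ∣ (Subgroup.zpowers z).index) :
    ∃ s : Str (q := p) M hzp, ∀ χ ∈ principalBlock M G, s.w χ = 0 ∨ s.w χ = 1 ∨ s.w χ = -1 := by
  classical
  obtain ⟨X, Y, δ, ε, L, hmem, hdis, htX, hXc, hYc, hX, hε, hLi, hLY, hL1, hL2, hL3⟩ :=
    H9.BrThm.brauer hM hz hzp hsyl
  refine ⟨{
    w := fun χ => if χ ∈ X then δ χ else 0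
    L := fun a => if h : a ≠ 0 then L ((Units.mk0 a h : (ZMod p)ˣ) : (ZMod p)ˣ ⧸ (H9.BrMain.om hz).range) else triv G
    τ := ε
    hτ := hε
    hc := ?_
    hL := ?_
    hwL := ?_
    hwt := ?_ }, ?_⟩
  · intro χ hχ a ha
    rw [dif_pos ha]
    have ha' : a = ((Units.mk0 a ha : (ZMod p)ˣ) : ZMod p) := rfl
    rcases (hmem χ).1 hχ with h | h
    · rw [if_pos h, if_neg, sub_zero, vv_same, ha', (hX χ h).2]
      rintro rfl
      exact Finset.disjoint_left.1 hdis h ((hLY _).2 ⟨_, rfl⟩)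
    · have hnX : χ ∉ X := fun h' => Finset.disjoint_left.1 hdis h' h
      rw [if_neg hnX]
      obtain ⟨j, rfl⟩ := (hLY χ).1 h
      by_cases hj : ((Units.mk0 a ha : (ZMod p)ˣ) : (ZMod p)ˣ ⧸ (H9.BrMain.om hz).range) = j
      · rw [if_pos (by rw [hj]), vv_same]
        have := hL1 j (Units.mk0 a ha) hj
        rw [Units.val_mk0] at this
        rw [this, zero_sub]
      · rw [if_neg (fun h' => hj (hLi h').symm), vv_same]
        have := hL2 j (Units.mk0 a ha) hj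
        rw [Units.val_mk0] at this
        rw [this, sub_zero]
  · intro a ha
    rw [dif_pos ha]
    exact (hmem _).2 (Or.inr ((hLY _).2 ⟨_, rfl⟩))
  · intro a ha
    rw [dif_pos ha]
    exact if_neg (fun h => Finset.disjoint_left.1 hdis h ((hLY _).2 ⟨_, rfl⟩))
  · have h1 : δ (triv G) = 1 := by
      have h2 := (hX _ htX).2 1
      rw [Units.val_one, ← vv_same, vv_triv hzp one_ne_zero] at h2
      exact h2.symm
    change (if triv G ∈ X then δ (triv G) else 0) = 1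
    rw [if_pos htX, h1]
  · intro χ _
    change (if χ ∈ X then δ χ else 0) = 0 ∨ (if χ ∈ X then δ χ else 0) = 1 ∨ (if χ ∈ X then δ χ else 0) = -1
    by_cases h : χ ∈ X
    · rw [if_pos h]
      right
      exact (hX χ h).1
    · rw [if_neg h]
      left; rfl

end Cfsg.Agent.H13.CPf
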