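import Mathlib
import Cfsg.Agent.H13_CPf

/-! Cyclic Sylow subgroups: the key identity. -/

set_option autoImplicit false
set_option linter.unusedSectionVars false

namespace Cfsg.Agent.H13.CPg

open Cfsg Cfsg.Agent Cfsg.Agent.H3.CharIrr Cfsg.Agent.H3.CharComplete Cfsg.Agent.H3.CharInd
  Cfsg.Agent.H3.CharBasic Cfsg.Agent.H10.BlockLoc Cfsg.Agent.H10.Char Cfsg.Agent.H10.PPart
  Cfsg.Agent.H10.BlockAlg Cfsg.Agent.H10.BlockIdem Cfsg.Agent.H10.BlockHZ Cfsg.Agent.H10.RegPart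
  Cfsg.Agent.H10.BlockOrth Cfsg.Agent.H10.BlockKer Cfsg.Agent.H10.BlockSMT2 Cfsg.Agent.H10.BlockV4
  Cfsg.Agent.H10.BlockCen Cfsg.Agent.H10.BlockPrin
  Cfsg.Agent.H13.CPa Cfsg.Agent.H13.CPb Cfsg.Agent.H13.CPd
open scoped ComplexConjugate

variable {G : Type*} [Group G] [Fintype G] {p : ℕ} [hp : Fact p.Prime] {M : Ideal AlgInt} {z : G}
  {q : ℕ} [NeZero q]

/-- Gauss periods -/
noncomputable def ss (hz : orderOf z = q) [Fintype (HH hz)] (a u : ZMod q) : ℂ :=
  ∑ h : HH hz, ee q (a * (((h : (ZMod q)ˣ) : ZMod q) * u))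

theorem ss_zero (hz : orderOf z = q) [Fintype (HH hz)] (a : ZMod q) : ss hz a 0 = Nat.card (HH hz) := by
  unfold ss
  simp only [mul_zero, ee_zero, Finset.sum_const, Finset.card_univ, nsmul_eq_mul, mul_one, Nat.card_eq_fintype_card]

/-- products of Gauss periods -/
theorem ss_mul (hz : orderOf z = q) [Fintype (HH hz)] (a i j : ZMod q) (k : HH hz) :
    ∑ h : HH hz, ss hz a (i + ((k : (ZMod q)ˣ) : ZMod q) * (((h : (ZMod q)ˣ) : ZMod q) * j)) = ss hz a i * ss hz a j := by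
  have h1 : ∀ h : HH hz, ss hz a (i + ((k : (ZMod q)ˣ) : ZMod q) * (((h : (ZMod q)ˣ) : ZMod q) * j)) =
      ∑ h' : HH hz, ee q (a * (((h' : (ZMod q)ˣ) : ZMod q) * i)) *
        ee q (a * ((((h' * k * h : HH hz) : (ZMod q)ˣ) : ZMod q) * j)) := by
    intro h
    unfold ss
    refine Finset.sum_congr rfl fun h' _ => ?_
    rw [← ee_add]
    congr 1
    simp only [Subgroup.coe_mul, Units.val_mul]
    ring
  rw [Finset.sum_congr rfl fun h _ => h1 h, Finset.sum_comm]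
  have h2 : ∀ h' : HH hz, ∑ h : HH hz, ee q (a * (((h' : (ZMod q)ˣ) : ZMod q) * i)) *
        ee q (a * ((((h' * k * h : HH hz) : (ZMod q)ˣ) : ZMod q) * j)) =
        ee q (a * (((h' : (ZMod q)ˣ) : ZMod q) * i)) * ss hz a j := by
    intro h'
    rw [← Finset.mul_sum]
    congr 1
    exact Fintype.sum_equiv (Equiv.mulLeft (h' * k)) _ _ fun h => rfl
  rw [Finset.sum_congr rfl fun h' _ => h2 h', ← Finset.sum_mul]
  rfl

open Classical in
/-- averaging one element -/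
theorem one_elt (hM : IsPModular p M) [Fintype (IrrCharacter G)]
    (P : Sylow p G) (hPz : Subgroup.zpowers z = (P : Subgroup G)) (hz : orderOf z = q) {n : ℕ} (hq : q = p ^ n)
    (hzq : z ^ q = 1) [Fintype (HH hz)] {g v : G} {u : ZMod q} (hv : IsPPart p g v) (hvu : IsConj v (zp q z u))
    (a : ZMod q) :
    ∑ χ : IrrCharacter G, (if χ ∈ principalBlock M G then (χ : G → ℂ) g * (vv hzq χ a : ℂ) else 0) =
      (Nat.card (HH hz) : ℂ) - ss hz a u := by
  have h1 : ∀ χ : IrrCharacter G, (if χ ∈ principalBlock M G then (χ : G → ℂ) g * (vv hzq χ a : ℂ) else 0) =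
      (q : ℂ)⁻¹ * ∑ k : ZMod q, (1 - ee q (a * k)) *
        (if χ ∈ principalBlock M G then (χ : G → ℂ) g * conj ((χ : G → ℂ) (zp q z k)) else 0) := by
    intro χ
    split_ifs
    · have h2 : (vv hzq χ a : ℂ) = conj (vv hzq χ a : ℂ) := by rw [map_intCast]
      rw [h2, vv_eq, map_mul, map_sum, map_inv₀, map_natCast, mul_left_comm, Finset.mul_sum]
      congr 1
      refine Finset.sum_congr rfl fun i _ => ?_
      rw [map_mul, map_sub, map_one, ee_conj, neg_neg]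
      ring
    · simp
  rw [Finset.sum_congr rfl fun χ _ => h1 χ, ← Finset.mul_sum, Finset.sum_comm]
  have h2 : ∀ k : ZMod q, ∑ χ : IrrCharacter G, (1 - ee q (a * k)) *
        (if χ ∈ principalBlock M G then (χ : G → ℂ) g * conj ((χ : G → ℂ) (zp q z k)) else 0) =
      if (u ≠ 0 ∧ ∃ h ∈ HH hz, k = (h : ZMod q) * u) then (q : ℂ) * (1 - ee q (a * k)) else 0 := by
    intro k
    rw [← Finset.mul_sum]
    by_cases hk : k = 0
    · subst hk
      rw [mul_zero, ee_zero]; simp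
    · rw [kerF hM P hPz hz hq hk hv]
      by_cases hu : u = 0
      · subst hu
        rw [zp_zero] at hvu
        have hv1 : v = 1 := by
          obtain ⟨c, hc⟩ := isConj_iff.1 hvu
          have : v = c⁻¹ * (c * v * c⁻¹) * c := by group
          rw [this, hc]; group
        rw [if_neg, if_neg (fun h => h.1 rfl), mul_zero]
        intro h
        rw [hv1] at h
        obtain ⟨c, hc⟩ := isConj_iff.1 h
        rw [mul_one, mul_inv_cancel] at hc
        exact hk ((zp_eq_one hz).1 hc.symm)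
      · have h3 : IsConj v (zp q z k) ↔ (u ≠ 0 ∧ ∃ h ∈ HH hz, k = (h : ZMod q) * u) := by
          rw [← isConj_iff_HH P hPz hz hu]
          exact ⟨fun h => ⟨hu, hvu.symm.trans h⟩, fun h => hvu.trans h.2⟩
        by_cases h4 : IsConj v (zp q z k)
        · rw [if_pos h4, if_pos (h3.1 h4)]; ring
        · rw [if_neg h4, if_neg (fun h => h4 (h3.2 h)), mul_zero]
  rw [Finset.sum_congr rfl fun k _ => h2 k]
  by_cases hu : u = 0
  · subst hu
    rw [ss_zero, sub_self, Finset.sum_eq_zero, mul_zero]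
    intro k _
    rw [if_neg (fun h => h.1 rfl)]
  · rw [← Finset.sum_filter]
    have h3 : ∑ k ∈ Finset.univ.filter (fun k : ZMod q => u ≠ 0 ∧ ∃ h ∈ HH hz, k = (h : ZMod q) * u),
        (q : ℂ) * (1 - ee q (a * k)) = ∑ h : HH hz, (q : ℂ) * (1 - ee q (a * (((h : (ZMod q)ˣ) : ZMod q) * u))) := by
      refine (Finset.sum_bij (fun (h : HH hz) _ => ((h : (ZMod q)ˣ) : ZMod q) * u) ?_ ?_ ?_ ?_).symm
      · intro h _
        rw [Finset.mem_filter]
        exact ⟨Finset.mem_univ _, hu, h, h.2, rfl⟩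
      · intro h _ h' _ heq
        exact Subtype.ext (HH_free P hPz hz hq _ h.2 _ h'.2 u hu heq)
      · intro j hj
        rw [Finset.mem_filter] at hj
        obtain ⟨-, -, h, hh, rfl⟩ := hj
        exact ⟨⟨h, hh⟩, Finset.mem_univ _, rfl⟩
      · intro h _; rfl
    rw [h3, ← Finset.mul_sum, Finset.sum_sub_distrib, Finset.sum_const, Finset.card_univ, ← Nat.card_eq_fintype_card,
      nsmul_eq_mul, mul_one, ← mul_assoc, inv_mul_cancel₀ (q_ne (q := q)), one_mul]
    rfl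

theorem sum_conj {χ : IrrCharacter G} (x y : G) :
    ∑ g : G, (χ : G → ℂ) (x * (g * y * g⁻¹)) = (Nat.card G : ℂ) * ((χ : G → ℂ) x * (χ : G → ℂ) y / (χ : G → ℂ) 1) := by
  have h1 := sum_conj_mul χ.2 x y
  have h2 : ∑ g : G, (χ : G → ℂ) (x * (g * y * g⁻¹)) = ∑ a : G, (χ : G → ℂ) (a⁻¹ * y * a * x) := by
    refine Fintype.sum_equiv (Equiv.inv G) _ _ fun g => ?_
    have h3 : (g⁻¹)⁻¹ * y * g⁻¹ * x = x⁻¹ * (x * (g * y * g⁻¹)) * x⁻¹⁻¹ := by group
    change _ = (χ : G → ℂ) ((g⁻¹)⁻¹ * y * g⁻¹ * x)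
    rw [h3, irr_class χ.2]
  rw [h2, h1]
  ring

section key

variable (hM : IsPModular p M) [Fintype (IrrCharacter G)]
    (P : Sylow p G) (hPz : Subgroup.zpowers z = (P : Subgroup G)) (hz : orderOf z = q) {n : ℕ} (hq : q = p ^ n)
    (hzq : z ^ q = 1) [Fintype (HH hz)]

include hM P hPz hq in
open Classical in
/-- the averaged identity -/
theorem averaged (hPP : ∀ g : G, ∃ h ∈ HH hz, ∀ i j : ZMod q, (p : ZMod q) * i = 0 → (p : ZMod q) * j = 0 →
      ∃ v, IsPPart p (zp q z i * (g * zp q z j * g⁻¹)) v ∧ IsConj v (zp q z (i + (h : ZMod q) * j)))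
    (a : ZMod q) {i j : ZMod q} (hi : (p : ZMod q) * i = 0) (hj : (p : ZMod q) * j = 0) :
    (Nat.card (HH hz) : ℂ) * ∑ χ : IrrCharacter G, (if χ ∈ principalBlock M G then
      ((χ : G → ℂ) (zp q z i) * (χ : G → ℂ) (zp q z j) / (χ : G → ℂ) 1) * (vv hzq χ a : ℂ) else 0) =
      (Nat.card (HH hz) : ℂ) ^ 2 - ss hz a i * ss hz a j := by
  have hG0 : (Nat.card G : ℂ) ≠ 0 := by
    exact_mod_cast Nat.card_pos.ne'
  set T := ∑ χ : IrrCharacter G, (if χ ∈ principalBlock M G then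
      ((χ : G → ℂ) (zp q z i) * (χ : G → ℂ) (zp q z j) / (χ : G → ℂ) 1) * (vv hzq χ a : ℂ) else 0) with hT
  have h1 : ∀ h : HH hz, (Nat.card G : ℂ) * T = ∑ g : G, ∑ χ : IrrCharacter G,
      (if χ ∈ principalBlock M G then
      (χ : G → ℂ) (zp q z i * (g * zp q z (((h : (ZMod q)ˣ) : ZMod q) * j) * g⁻¹)) * (vv hzq χ a : ℂ) else 0) := by
    intro h
    rw [Finset.sum_comm, hT, Finset.mul_sum]
    refine Finset.sum_congr rfl fun χ _ => ?_
    by_cases hχ : χ ∈ principalBlock M G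
    · rw [if_pos hχ]
      have h2 : ∀ g : G, (if χ ∈ principalBlock M G then
        (χ : G → ℂ) (zp q z i * (g * zp q z (((h : (ZMod q)ˣ) : ZMod q) * j) * g⁻¹)) * (vv hzq χ a : ℂ) else 0) =
        (χ : G → ℂ) (zp q z i * (g * zp q z (((h : (ZMod q)ˣ) : ZMod q) * j) * g⁻¹)) * (vv hzq χ a : ℂ) :=
        fun g => if_pos hχ
      rw [Finset.sum_congr rfl fun g _ => h2 g, ← Finset.sum_mul, sum_conj, class_HH hz χ h.2]
      ring
    · rw [if_neg hχ, mul_zero]
      symm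
      apply Finset.sum_eq_zero
      intro g _
      rw [if_neg hχ]
  choose k hk hk2 using hPP
  have h2 : ∀ h : HH hz, (Nat.card G : ℂ) * T = ∑ g : G, ((Nat.card (HH hz) : ℂ) -
      ss hz a (i + ((⟨k g, hk g⟩ : HH hz) : (ZMod q)ˣ) * (((h : (ZMod q)ˣ) : ZMod q) * j))) := by
    intro h
    rw [h1 h]
    refine Finset.sum_congr rfl fun g _ => ?_
    obtain ⟨v, hv, hvu⟩ := hk2 g i (((h : (ZMod q)ˣ) : ZMod q) * j) hi (by rw [mul_left_comm, hj, mul_zero])
    exact one_elt hM P hPz hz hq hzq hv hvu a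
  have h3 : ∑ h : HH hz, (Nat.card G : ℂ) * T = (Nat.card (HH hz) : ℂ) * ((Nat.card G : ℂ) * T) := by
    rw [Finset.sum_const, Finset.card_univ, nsmul_eq_mul, Nat.card_eq_fintype_card (α := HH hz)]
  rw [Finset.sum_congr rfl fun h _ => h2 h, Finset.sum_comm] at h3
  have h4 : ∀ g : G, ∑ h : HH hz, ((Nat.card (HH hz) : ℂ) -
      ss hz a (i + ((⟨k g, hk g⟩ : HH hz) : (ZMod q)ˣ) * (((h : (ZMod q)ˣ) : ZMod q) * j))) =
      (Nat.card (HH hz) : ℂ) ^ 2 - ss hz a i * ss hz a j := by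
    intro g
    rw [Finset.sum_sub_distrib, ss_mul, Finset.sum_const, Finset.card_univ, nsmul_eq_mul,
      Nat.card_eq_fintype_card (α := HH hz)]
    ring
  rw [Finset.sum_congr rfl fun g _ => h4 g, Finset.sum_const, Finset.card_univ, nsmul_eq_mul,
    ← Nat.card_eq_fintype_card (α := G)] at h3
  have h5 : (Nat.card G : ℂ) * ((Nat.card (HH hz) : ℂ) * T - ((Nat.card (HH hz) : ℂ) ^ 2 - ss hz a i * ss hz a j)) = 0 := by
    linear_combination -h3
  rcases mul_eq_zero.1 h5 with h | h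
  · exact absurd h hG0
  · linear_combination h

end key

end Cfsg.Agent.H13.CPg
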