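import Mathlib
import Cfsg.Agent.H13_CPg

/-! Cyclic Sylow subgroups: values of the characters in the principal block. -/

set_option autoImplicit false
set_option linter.unusedSectionVars false

namespace Cfsg.Agent.H13.CPh

open Cfsg Cfsg.Agent Cfsg.Agent.H3.CharIrr Cfsg.Agent.H3.CharComplete Cfsg.Agent.H3.CharInd
  Cfsg.Agent.H3.CharBasic Cfsg.Agent.H10.BlockLoc Cfsg.Agent.H10.Char Cfsg.Agent.H10.PPart
  Cfsg.Agent.H10.BlockAlg Cfsg.Agent.H10.BlockIdem Cfsg.Agent.H10.BlockHZ Cfsg.Agent.H10.RegPart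
  Cfsg.Agent.H10.BlockOrth Cfsg.Agent.H10.BlockKer Cfsg.Agent.H10.BlockSMT2 Cfsg.Agent.H10.BlockV4
  Cfsg.Agent.H10.BlockCen Cfsg.Agent.H10.BlockPrin
  Cfsg.Agent.H13.CPa Cfsg.Agent.H13.CPb Cfsg.Agent.H13.CPd Cfsg.Agent.H13.CPg
open scoped ComplexConjugate

variable {G : Type*} [Group G] [Fintype G] {p : ℕ} [hp : Fact p.Prime] {M : Ideal AlgInt} {z : G}
  {q : ℕ} [NeZero q]

/-- nonexceptional values -/
theorem val_w {hzq : z ^ q = 1} (s : Str (q := q) M hzq) {χ : IrrCharacter G} (hχ : χ ∈ principalBlock M G)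
    (hw : s.w χ ≠ 0) {i : ZMod q} (hi : i ≠ 0) : (χ : G → ℂ) (zp q z i) = s.w χ := by
  classical
  rw [char_eq_vv hzq χ hi]
  have h1 : ∀ a : ZMod q, (vv hzq χ a : ℂ) * ee q (a * i) = (s.w χ : ℂ) * ee q (i * a) -
      if a = 0 then (s.w χ : ℂ) else 0 := by
    intro a
    by_cases ha : a = 0
    · subst ha
      rw [vv_zero, if_pos rfl, mul_zero, ee_zero]; simp
    · rw [s.hc χ hχ a ha, if_neg ha, if_neg, sub_zero, sub_zero, mul_comm a i]
      rintro rfl
      exact hw (s.hwL a ha)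
  rw [Finset.sum_congr rfl fun a _ => h1 a, Finset.sum_sub_distrib, ← Finset.mul_sum, sum_ee, if_neg hi,
    Finset.sum_ite_eq' Finset.univ (0 : ZMod q), if_pos (Finset.mem_univ _)]
  ring

section key

variable (hM : IsPModular p M) [Fintype (IrrCharacter G)]
    (P : Sylow p G) (hPz : Subgroup.zpowers z = (P : Subgroup G)) (hz : orderOf z = q) {n : ℕ} (hq : q = p ^ n)
    {hzq : z ^ q = 1} (s : Str (q := q) M hzq)

include hM P hPz hq in
open Classical in
theorem gram_s {a b : ZMod q} (ha : a ≠ 0) (hb : b ≠ 0) :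
    ∑ χ ∈ Finset.univ.filter (fun χ : IrrCharacter G => χ ∈ principalBlock M G), s.w χ ^ 2 +
      (if s.L a = s.L b then 1 else 0) = (Nat.card (HH hz) : ℤ) + if (∃ h ∈ HH hz, a = h * b) then 1 else 0 := by
  rw [← gramH hM P hPz hz hq hzq ha hb]
  set S := Finset.univ.filter (fun χ : IrrCharacter G => χ ∈ principalBlock M G) with hS
  have hττ : s.τ * s.τ = 1 := by rcases s.hτ with h | h <;> rw [h] <;> norm_num
  have haS : s.L a ∈ S := Finset.mem_filter.2 ⟨Finset.mem_univ _, s.hL a ha⟩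
  have h1 : ∀ χ ∈ S, vv hzq χ a * vv hzq χ b = s.w χ ^ 2 +
      (if χ = s.L a then (if s.L a = s.L b then 1 else 0) else 0) := by
    intro χ hχ
    have hχ' := (Finset.mem_filter.1 hχ).2
    rw [s.hc χ hχ' a ha, s.hc χ hχ' b hb]
    by_cases h1 : χ = s.L a
    · subst h1
      rw [if_pos rfl, if_pos rfl, s.hwL a ha]
      by_cases h2 : s.L a = s.L b
      · rw [if_pos h2, if_pos h2]
        linear_combination hττ
      · rw [if_neg h2, if_neg h2]; ring
    · rw [if_neg h1, if_neg h1]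
      by_cases h2 : χ = s.L b
      · subst h2
        rw [if_pos rfl, s.hwL b hb]; ring
      · rw [if_neg h2]; ring
  rw [Finset.sum_congr rfl h1, Finset.sum_add_distrib, Finset.sum_ite_eq' S, if_pos haS]

include hM P hPz hq in
open Classical in
theorem w_sq (hq1 : (1 : ZMod q) ≠ 0) :
    ∑ χ ∈ Finset.univ.filter (fun χ : IrrCharacter G => χ ∈ principalBlock M G), s.w χ ^ 2 =
    (Nat.card (HH hz) : ℤ) := by
  have h1 := gram_s hM P hPz hz hq s hq1 hq1
  rw [if_pos rfl, if_pos ⟨1, one_mem _, by rw [Units.val_one, one_mul]⟩] at h1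
  linarith

include hM P hPz hq in
theorem L_iff {a b : ZMod q} (ha : a ≠ 0) (hb : b ≠ 0) : s.L a = s.L b ↔ ∃ h ∈ HH hz, a = h * b := by
  classical
  have h1 := gram_s hM P hPz hz hq s ha hb
  rw [w_sq hM P hPz hz hq s (fun h => ha (by rw [← mul_one a, h, mul_zero]))] at h1
  by_cases h2 : s.L a = s.L b <;> by_cases h3 : (∃ h ∈ HH hz, a = (h : ZMod q) * b)
  · exact ⟨fun _ => h3, fun _ => h2⟩
  · rw [if_pos h2, if_neg h3] at h1; omega
  · rw [if_neg h2, if_pos h3] at h1; omega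
  · exact ⟨fun h => absurd h h2, fun h => absurd h h3⟩

include hM P hPz hq in
/-- exceptional values -/
theorem val_L [Fintype (HH hz)] {a i : ZMod q} (ha : a ≠ 0) (hi : i ≠ 0) :
    (s.L a : G → ℂ) (zp q z i) = (s.τ : ℂ) * ss hz a i := by
  classical
  rw [char_eq_vv hzq _ hi]
  have h1 : ∀ b : ZMod q, (vv hzq (s.L a) b : ℂ) * ee q (b * i) =
      -((s.τ : ℂ) * if (∃ h ∈ HH hz, b = (h : ZMod q) * a) then ee q (b * i) else 0) := by
    intro b
    by_cases hb : b = 0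
    · subst hb
      rw [vv_zero, if_neg]
      · simp
      · rintro ⟨h, -, h2⟩
        exact ha ((h.isUnit.mul_right_eq_zero).1 h2.symm)
    · rw [s.hc _ (s.hL a ha) b hb, s.hwL a ha]
      have h2 := L_iff hM P hPz hz hq s hb ha
      by_cases h3 : s.L a = s.L b
      · rw [if_pos h3, if_pos (h2.1 h3.symm)]
        push_cast; ring
      · rw [if_neg h3, if_neg (fun h => h3 (h2.2 h).symm)]
        simp
  rw [Finset.sum_congr rfl fun b _ => h1 b, Finset.sum_neg_distrib, neg_neg, ← Finset.mul_sum, ← Finset.sum_filter]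
  congr 1
  unfold ss
  refine (Finset.sum_bij (fun (h : HH hz) _ => ((h : (ZMod q)ˣ) : ZMod q) * a) ?_ ?_ ?_ ?_).symm
  · intro h _
    rw [Finset.mem_filter]
    exact ⟨Finset.mem_univ _, h, h.2, rfl⟩
  · intro h _ h' _ heq
    exact Subtype.ext (HH_free P hPz hz hq _ h.2 _ h'.2 a ha heq)
  · intro j hj
    rw [Finset.mem_filter] at hj
    obtain ⟨-, h, hh, rfl⟩ := hj
    exact ⟨⟨h, hh⟩, Finset.mem_univ _, rfl⟩
  · intro h _
    congr 1; ring

include hM hz hq in
open Classical in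
/-- degrees -/
theorem degree_rel {a : ZMod q} (ha : a ≠ 0) :
    ∑ χ ∈ Finset.univ.filter (fun χ : IrrCharacter G => χ ∈ principalBlock M G), (s.w χ : ℂ) * (χ : G → ℂ) 1 =
      (s.τ : ℂ) * (s.L a : G → ℂ) 1 := by
  have h1p : ¬ p ∣ orderOf (1 : G) := by
    rw [orderOf_one]; intro h; exact hp.out.one_lt.ne' (Nat.dvd_one.1 h)
  have h1 := vv_regular hM hz hq hzq a h1p
  rw [← Finset.sum_filter] at h1
  set S := Finset.univ.filter (fun χ : IrrCharacter G => χ ∈ principalBlock M G) with hS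
  have haS : s.L a ∈ S := Finset.mem_filter.2 ⟨Finset.mem_univ _, s.hL a ha⟩
  have h2 : ∀ χ ∈ S, (vv hzq χ a : ℂ) * (χ : G → ℂ) 1 = (s.w χ : ℂ) * (χ : G → ℂ) 1 -
      if χ = s.L a then (s.τ : ℂ) * (s.L a : G → ℂ) 1 else 0 := by
    intro χ hχ
    rw [s.hc χ (Finset.mem_filter.1 hχ).2 a ha]
    by_cases h : χ = s.L a
    · rw [if_pos h, if_pos h, h]; push_cast; ring
    · rw [if_neg h, if_neg h]; push_cast; ring
  rw [Finset.sum_congr rfl h2, Finset.sum_sub_distrib, Finset.sum_ite_eq' S, if_pos haS] at h1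
  linear_combination h1

include hM hz hq in
theorem L_degree {a b : ZMod q} (ha : a ≠ 0) (hb : b ≠ 0) : (s.L a : G → ℂ) 1 = (s.L b : G → ℂ) 1 := by
  have h1 := (degree_rel hM hz hq s ha).symm.trans (degree_rel hM hz hq s hb)
  rcases s.hτ with h | h <;> rw [h] at h1 <;> push_cast at h1
  · linear_combination h1
  · linear_combination -h1

open Classical in
/-- the sum of cubes -/
noncomputable def FF : ℂ :=
  ∑ χ ∈ Finset.univ.filter (fun χ : IrrCharacter G => χ ∈ principalBlock M G), (s.w χ : ℂ) ^ 3 / (χ : G → ℂ) 1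

include hM P hPz hq in
open Classical in
/-- the key identity -/
theorem key [Fintype (HH hz)]
    (hPP : ∀ g : G, ∃ h ∈ HH hz, ∀ i j : ZMod q, (p : ZMod q) * i = 0 → (p : ZMod q) * j = 0 →
      ∃ v, IsPPart p (zp q z i * (g * zp q z j * g⁻¹)) v ∧ IsConj v (zp q z (i + (h : ZMod q) * j)))
    {a : ZMod q} (ha : a ≠ 0) {i j : ZMod q} (hi : (p : ZMod q) * i = 0) (hj : (p : ZMod q) * j = 0)
    (hi0 : i ≠ 0) (hj0 : j ≠ 0) :
    (Nat.card (HH hz) : ℂ) * (FF s - (s.τ : ℂ) * ss hz a i * ss hz a j / (s.L a : G → ℂ) 1) =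
      (Nat.card (HH hz) : ℂ) ^ 2 - ss hz a i * ss hz a j := by
  rw [← averaged hM P hPz hz hq hzq hPP a hi hj, ← Finset.sum_filter]
  congr 1
  unfold FF
  set S := Finset.univ.filter (fun χ : IrrCharacter G => χ ∈ principalBlock M G) with hS
  have haS : s.L a ∈ S := Finset.mem_filter.2 ⟨Finset.mem_univ _, s.hL a ha⟩
  have hττ : (s.τ : ℂ) * s.τ = 1 := by rcases s.hτ with h | h <;> rw [h] <;> norm_num
  have h1 : ∀ χ ∈ S, ((χ : G → ℂ) (zp q z i) * (χ : G → ℂ) (zp q z j) / (χ : G → ℂ) 1) * (vv hzq χ a : ℂ) =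
      (s.w χ : ℂ) ^ 3 / (χ : G → ℂ) 1 -
        if χ = s.L a then (s.τ : ℂ) * ss hz a i * ss hz a j / (s.L a : G → ℂ) 1 else 0 := by
    intro χ hχ
    have hχ' := (Finset.mem_filter.1 hχ).2
    rw [s.hc χ hχ' a ha]
    by_cases h : χ = s.L a
    · rw [if_pos h, if_pos h, h, val_L hM P hPz hz hq s ha hi0, val_L hM P hPz hz hq s ha hj0, s.hwL a ha]
      push_cast
      linear_combination (-(s.τ : ℂ) * ss hz a i * ss hz a j / (s.L a : G → ℂ) 1) * hττ
    · rw [if_neg h, if_neg h]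
      by_cases hw : s.w χ = 0
      · rw [hw]; simp
      · rw [val_w s hχ' hw hi0, val_w s hχ' hw hj0]
        push_cast; ring
  rw [Finset.sum_congr rfl h1, Finset.sum_sub_distrib, Finset.sum_ite_eq' S, if_pos haS]

end key

end Cfsg.Agent.H13.CPh
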