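import Mathlib
import Cfsg.Agent.H13_CPh

/-! Cyclic Sylow subgroups: sums of Gauss periods. -/

set_option autoImplicit false
set_option linter.unusedSectionVars false

namespace Cfsg.Agent.H13.CPi

open Cfsg Cfsg.Agent Cfsg.Agent.H3.CharIrr Cfsg.Agent.H3.CharComplete Cfsg.Agent.H3.CharInd
  Cfsg.Agent.H3.CharBasic Cfsg.Agent.H10.BlockLoc Cfsg.Agent.H10.Char Cfsg.Agent.H10.PPart
  Cfsg.Agent.H10.BlockAlg Cfsg.Agent.H10.BlockIdem Cfsg.Agent.H10.BlockHZ Cfsg.Agent.H10.RegPart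
  Cfsg.Agent.H10.BlockOrth Cfsg.Agent.H10.BlockKer Cfsg.Agent.H10.BlockSMT2 Cfsg.Agent.H10.BlockV4
  Cfsg.Agent.H10.BlockCen Cfsg.Agent.H10.BlockPrin
  Cfsg.Agent.H13.CPa Cfsg.Agent.H13.CPb Cfsg.Agent.H13.CPd Cfsg.Agent.H13.CPg Cfsg.Agent.H13.CPh
open scoped ComplexConjugate

variable {G : Type*} [Group G] [Fintype G] {p : ℕ} [hp : Fact p.Prime] {M : Ideal AlgInt} {z : G}
  {q : ℕ} [NeZero q]

/-- first moment along `c` -/
theorem sum_ss (hz : orderOf z = q) [Fintype (HH hz)] {c : ZMod q} (hc : c ≠ 0) :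
    ∑ m : ZMod q, ss hz 1 (c * m) = 0 := by
  unfold ss
  rw [Finset.sum_comm]
  apply Finset.sum_eq_zero
  intro h _
  have h1 : ∀ m : ZMod q, ee q (1 * (((h : (ZMod q)ˣ) : ZMod q) * (c * m))) =
      ee q ((((h : (ZMod q)ˣ) : ZMod q) * c) * m) := by
    intro m; congr 1; ring
  rw [Finset.sum_congr rfl fun m _ => h1 m, sum_ee, if_neg]
  intro h2
  exact hc (((h : (ZMod q)ˣ).isUnit.mul_right_eq_zero).1 h2)

/-- second moment -/
theorem sum_ss_sq (hz : orderOf z = q) [Fintype (HH hz)] :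
    ∑ m : ZMod q, ss hz 1 m * ss hz 1 (-m) = (q : ℂ) * Nat.card (HH hz) := by
  unfold ss
  simp only [Finset.sum_mul_sum]
  rw [Finset.sum_comm]
  have h1 : ∀ h : HH hz, ∑ m : ZMod q, ∑ h' : HH hz, ee q (1 * (((h : (ZMod q)ˣ) : ZMod q) * m)) *
      ee q (1 * (((h' : (ZMod q)ˣ) : ZMod q) * -m)) = (q : ℂ) := by
    intro h
    rw [Finset.sum_comm]
    have h2 : ∀ h' : HH hz, ∑ m : ZMod q, ee q (1 * (((h : (ZMod q)ˣ) : ZMod q) * m)) *
      ee q (1 * (((h' : (ZMod q)ˣ) : ZMod q) * -m)) = if h' = h then (q : ℂ) else 0 := by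
      intro h'
      have h3 : ∀ m : ZMod q, ee q (1 * (((h : (ZMod q)ˣ) : ZMod q) * m)) *
          ee q (1 * (((h' : (ZMod q)ˣ) : ZMod q) * -m)) =
          ee q ((((h : (ZMod q)ˣ) : ZMod q) - ((h' : (ZMod q)ˣ) : ZMod q)) * m) := by
        intro m
        rw [← ee_add]; congr 1; ring
      rw [Finset.sum_congr rfl fun m _ => h3 m, sum_ee]
      by_cases h4 : h' = h
      · rw [if_pos h4, if_pos (by rw [h4, sub_self])]
      · rw [if_neg h4, if_neg]
        intro h5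
        exact h4 (Subtype.ext (Units.ext (sub_eq_zero.1 h5).symm))
    rw [Finset.sum_congr rfl fun h' _ => h2 h', Finset.sum_ite_eq' Finset.univ h, if_pos (Finset.mem_univ _)]
  rw [Finset.sum_congr rfl fun h _ => h1 h, Finset.sum_const, Finset.card_univ, nsmul_eq_mul,
    Nat.card_eq_fintype_card, mul_comm]

/-- case `n ≥ 2` -/
theorem case_two (hz : orderOf z = q) [Fintype (HH hz)] {n : ℕ} (hq : q = p ^ n) (hp3 : 3 ≤ p)
    (he : 1 ≤ Nat.card (HH hz)) {c : ZMod q} (hc : c ≠ 0) (hpc : (p : ZMod q) * c = 0)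
    (h : ∀ i j : ZMod q, (p : ZMod q) * i = 0 → (p : ZMod q) * j = 0 → i ≠ 0 → j ≠ 0 →
      ss hz 1 i * ss hz 1 j = (Nat.card (HH hz) : ℂ) ^ 2) : False := by
  classical
  set e := Nat.card (HH hz) with hedef
  have he0 : (e : ℂ) ≠ 0 := by
    exact_mod_cast (by omega : e ≠ 0)
  set κ := ss hz 1 c with hκ
  have hκ2 : κ * κ = (e : ℂ) ^ 2 := h c c hpc hpc hc hc
  have hκ0 : κ ≠ 0 := by
    intro h0
    rw [h0, zero_mul] at hκ2
    exact he0 (pow_eq_zero_iff (two_ne_zero) |>.1 hκ2.symm)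
  have hconst : ∀ m : ZMod q, c * m ≠ 0 → ss hz 1 (c * m) = κ := by
    intro m hm
    have h1 := h (c * m) c (by rw [← mul_assoc, hpc, zero_mul]) hpc hm hc
    exact mul_right_cancel₀ hκ0 (h1.trans hκ2.symm)
  have h1 := sum_ss hz hc
  have h2 : ∀ m : ZMod q, ss hz 1 (c * m) = κ + if c * m = 0 then (e : ℂ) - κ else 0 := by
    intro m
    by_cases hm : c * m = 0
    · rw [if_pos hm, hm, ss_zero]; ring
    · rw [if_neg hm, hconst m hm, add_zero]
  rw [Finset.sum_congr rfl fun m _ => h2 m, Finset.sum_add_distrib, ← Finset.sum_filter, Finset.sum_const,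
    Finset.sum_const, Finset.card_univ, ZMod.card, nsmul_eq_mul, nsmul_eq_mul] at h1
  set N := (Finset.univ.filter (fun m : ZMod q => c * m = 0)).card with hN
  have hκe : κ = e ∨ κ = -e := by
    have : (κ - e) * (κ + e) = 0 := by linear_combination hκ2
    rcases mul_eq_zero.1 this with h3 | h3
    · left; linear_combination h3
    · right; linear_combination h3
  rcases hκe with h3 | h3
  · rw [h3, sub_self, mul_zero, add_zero] at h1
    rcases mul_eq_zero.1 h1 with h4 | h4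
    · exact q_ne (q := q) h4
    · exact he0 h4
  · rw [h3] at h1
    have h4 : (e : ℂ) * (2 * N - q) = 0 := by linear_combination h1
    rcases mul_eq_zero.1 h4 with h5 | h5
    · exact he0 h5
    · have h6 : 2 * N = q := by
        have : (2 * N : ℂ) = q := by linear_combination h5
        exact_mod_cast this
      have h7 : 2 ∣ p ^ n := by rw [← hq, ← h6]; exact dvd_mul_right _ _
      have h8 := Nat.prime_two.dvd_of_dvd_pow h7
      have h9 := (Nat.prime_dvd_prime_iff_eq Nat.prime_two hp.out).1 h8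
      omega

/-- case `n = 1` -/
theorem case_one (hz : orderOf z = q) [Fintype (HH hz)] (hq1 : (1 : ZMod q) ≠ 0) (hle : Nat.card (HH hz) ≤ q - 1)
    (he : 1 ≤ Nat.card (HH hz)) {C : ℂ}
    (h : ∀ i j : ZMod q, i ≠ 0 → j ≠ 0 → ss hz 1 i * ss hz 1 j = C) : Nat.card (HH hz) = q - 1 := by
  classical
  set e := Nat.card (HH hz) with hedef
  have h1 := sum_ss hz hq1
  simp only [one_mul] at h1
  have hq0 : 1 ≤ q := Nat.one_le_iff_ne_zero.2 (NeZero.ne q)
  rw [← Finset.add_sum_erase _ _ (Finset.mem_univ (0 : ZMod q)), ss_zero] at h1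
  have hcard : ((Finset.univ.erase (0 : ZMod q)).card : ℂ) = (q : ℂ) - 1 := by
    rw [Finset.card_erase_of_mem (Finset.mem_univ _), Finset.card_univ, ZMod.card, Nat.cast_sub hq0, Nat.cast_one]
  have h2 : (∑ i ∈ Finset.univ.erase (0 : ZMod q), ss hz 1 i) * (∑ j ∈ Finset.univ.erase (0 : ZMod q), ss hz 1 j) =
      ((q : ℂ) - 1) ^ 2 * C := by
    rw [Finset.sum_mul_sum]
    rw [Finset.sum_congr rfl fun i hi => Finset.sum_congr rfl fun j hj =>
      h i j (Finset.ne_of_mem_erase hi) (Finset.ne_of_mem_erase hj)]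
    rw [Finset.sum_const, Finset.sum_const, nsmul_eq_mul, nsmul_eq_mul, hcard]
    ring
  have h3 : ∑ i ∈ Finset.univ.erase (0 : ZMod q), ss hz 1 i = -(e : ℂ) := by linear_combination h1
  rw [h3] at h2
  have h4 := sum_ss_sq hz
  rw [← Finset.add_sum_erase _ _ (Finset.mem_univ (0 : ZMod q)), neg_zero, ss_zero,
    Finset.sum_congr rfl (fun i hi => h i (-i) (Finset.ne_of_mem_erase hi) (neg_ne_zero.2 (Finset.ne_of_mem_erase hi))),
    Finset.sum_const, nsmul_eq_mul, hcard] at h4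
  -- `e = (q-1)(q-e)`
  have h5 : (e : ℂ) * (e - (q - 1) * (q - e)) = 0 := by linear_combination h2 + ((q : ℂ) - 1) * h4
  have he0 : (e : ℂ) ≠ 0 := by exact_mod_cast (by omega : e ≠ 0)
  rcases mul_eq_zero.1 h5 with h6 | h6
  · exact absurd h6 he0
  · have h7 : (e : ℤ) - (q - 1) * (q - e) = 0 := by exact_mod_cast h6
    have h8 : (e : ℤ) ≤ q - 1 := by omega
    have h9 : (q : ℤ) - 1 ≤ e := by nlinarith
    omega

end Cfsg.Agent.H13.CPi
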