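import Mathlib
import Cfsg.Agent.H13_CPi

/-! Cyclic Sylow subgroups: the characters in the principal block. -/

set_option autoImplicit false
set_option linter.unusedSectionVars false

namespace Cfsg.Agent.H13.CPj

open Cfsg Cfsg.Agent Cfsg.Agent.H3.CharIrr Cfsg.Agent.H3.CharComplete Cfsg.Agent.H3.CharInd
  Cfsg.Agent.H3.CharBasic Cfsg.Agent.H10.BlockLoc Cfsg.Agent.H10.Char Cfsg.Agent.H10.PPart
  Cfsg.Agent.H10.BlockAlg Cfsg.Agent.H10.BlockIdem Cfsg.Agent.H10.BlockHZ Cfsg.Agent.H10.RegPart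
  Cfsg.Agent.H10.BlockOrth Cfsg.Agent.H10.BlockKer Cfsg.Agent.H10.BlockSMT2 Cfsg.Agent.H10.BlockV4
  Cfsg.Agent.H10.BlockCen Cfsg.Agent.H10.BlockPrin
  Cfsg.Agent.H13.CPa Cfsg.Agent.H13.CPb Cfsg.Agent.H13.CPd Cfsg.Agent.H13.CPg Cfsg.Agent.H13.CPh
  Cfsg.Agent.H13.CPi
open scoped ComplexConjugate

variable {G : Type*} [Group G] [Fintype G] {p : ℕ} [hp : Fact p.Prime] {M : Ideal AlgInt} {z : G}
  {q : ℕ} [NeZero q]

section key

variable (hM : IsPModular p M) [Fintype (IrrCharacter G)]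
    (P : Sylow p G) (hPz : Subgroup.zpowers z = (P : Subgroup G)) (hz : orderOf z = q) {n : ℕ} (hq : q = p ^ n)
    {hzq : z ^ q = 1} (s : Str (q := q) M hzq)

include hM P hPz hq in
theorem dichotomy (hn : 1 ≤ n) (he : 2 ≤ Nat.card (HH hz))
    (hPP : ∀ g : G, ∃ h ∈ HH hz, ∀ i j : ZMod q, (p : ZMod q) * i = 0 → (p : ZMod q) * j = 0 →
      ∃ v, IsPPart p (zp q z i * (g * zp q z j * g⁻¹)) v ∧ IsConj v (zp q z (i + (h : ZMod q) * j))) :
    (FF s = Nat.card (HH hz)) ∨
      (n = 1 ∧ Nat.card (HH hz) = p - 1) := by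
  classical
  haveI : Fintype (HH hz) := Fintype.ofFinite _
  have hle := card_HH_le P hPz hz hq hn
  have hp2 := hp.out.two_le
  set e := Nat.card (HH hz) with hedef
  have he0 : (e : ℂ) ≠ 0 := by exact_mod_cast (by omega : e ≠ 0)
  -- the element `c`
  obtain ⟨m, rfl⟩ : ∃ m, n = m + 1 := ⟨n - 1, by omega⟩
  set c : ZMod q := ((p ^ m : ℕ) : ZMod q) with hc
  have hpc : (p : ZMod q) * c = 0 := by
    rw [hc, ← Nat.cast_mul, ← pow_succ', ← hq, ZMod.natCast_self]
  have hc0 : c ≠ 0 := by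
    intro h
    rw [hc, ZMod.natCast_eq_zero_iff, hq] at h
    have h1 := Nat.le_of_dvd (pow_pos hp.out.pos _) h
    rw [pow_succ] at h1
    have h2 : 0 < p ^ m := pow_pos hp.out.pos _
    nlinarith
  have h10 : (1 : ZMod q) ≠ 0 := fun h => hc0 (by rw [← mul_one c, h, mul_zero])
  set d := (s.L 1 : G → ℂ) 1 with hd
  have hd0 : d ≠ 0 := irr_one_ne (s.L 1).2
  have hkey : ∀ i j : ZMod q, (p : ZMod q) * i = 0 → (p : ZMod q) * j = 0 → i ≠ 0 → j ≠ 0 →
      ss hz 1 i * ss hz 1 j * (d - e * s.τ) = d * ((e : ℂ) ^ 2 - e * FF s) := by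
    intro i j hi hj hi0 hj0
    have h1 := key hM P hPz hz hq s hPP h10 hi hj hi0 hj0
    rw [← hedef, ← hd] at h1
    field_simp at h1
    linear_combination h1
  by_cases hdt : d - e * s.τ = 0
  · left
    have h1 := hkey c c hpc hpc hc0 hc0
    rw [hdt, mul_zero] at h1
    have h2 : d * (e * ((e : ℂ) - FF s)) = 0 := by linear_combination -h1
    rcases mul_eq_zero.1 h2 with h3 | h3
    · exact absurd h3 hd0
    · rcases mul_eq_zero.1 h3 with h4 | h4
      · exact absurd h4 he0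
      · linear_combination -h4
  · right
    by_cases hm : m = 0
    · subst hm
      refine ⟨rfl, ?_⟩
      have hqp : q = p := by rw [hq]; ring
      have hpz : ∀ i : ZMod q, (p : ZMod q) * i = 0 := by
        intro i
        have : ((p : ℕ) : ZMod q) = ((q : ℕ) : ZMod q) := by rw [hqp]
        rw [this, ZMod.natCast_self, zero_mul]
      have h2 := case_one hz h10 (by
          have h5 : q - 1 = p - 1 := by omega
          rw [h5, ← hedef]; exact hle) (by omega)
        (C := d * ((e : ℂ) ^ 2 - e * FF s) / (d - e * s.τ)) (by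
          intro i j hi hj
          rw [eq_div_iff hdt]
          exact hkey i j (hpz i) (hpz j) hi hj)
      rw [← hedef] at h2
      rw [h2, hqp]
    · exfalso
      have hp0 : (p : ZMod q) ≠ 0 := by
        intro h
        rw [ZMod.natCast_eq_zero_iff, hq] at h
        have h1 := Nat.le_of_dvd hp.out.pos h
        have h2 : p ^ 2 ≤ p ^ (m + 1) := Nat.pow_le_pow_right hp.out.pos (by omega)
        nlinarith
      have hssp : ss hz (p : ZMod q) c = e := by
        unfold ss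
        have : ∀ h : HH hz, ee q ((p : ZMod q) * (((h : (ZMod q)ˣ) : ZMod q) * c)) = 1 := by
          intro h
          rw [mul_left_comm, hpc, mul_zero, ee_zero]
        rw [Finset.sum_congr rfl fun h _ => this h, Finset.sum_const, Finset.card_univ, nsmul_eq_mul, mul_one, hedef,
          Nat.card_eq_fintype_card]
      have h1 := key hM P hPz hz hq s hPP hp0 hpc hpc hc0 hc0
      rw [hssp, L_degree hM hz hq s hp0 h10, ← hedef, ← hd] at h1
      have h2 : FF s * d = s.τ * (e : ℂ) ^ 2 := by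
        have h3 : (e : ℂ) * (FF s - s.τ * e * e / d) = 0 := by rw [h1]; ring
        rcases mul_eq_zero.1 h3 with h4 | h4
        · exact absurd h4 he0
        · field_simp at h4
          linear_combination h4
      refine case_two hz hq (by omega) (by omega) hc0 hpc ?_
      intro i j hi hj hi0 hj0
      have h3 := hkey i j hi hj hi0 hj0
      have h4 : (d - e * s.τ) * (ss hz 1 i * ss hz 1 j - (e : ℂ) ^ 2) = 0 := by
        linear_combination h3 - e * h2
      rcases mul_eq_zero.1 h4 with h5 | h5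
      · exact absurd h5 hdt
      · linear_combination h5

include hM P hPz hq in
/-- the first conclusion -/
theorem caseA (h10 : (1 : ZMod q) ≠ 0) (he : 2 ≤ Nat.card (HH hz)) (hF : FF s = Nat.card (HH hz)) :
    ∃ χ : IrrCharacter G, χ ≠ triv G ∧ (χ : G → ℂ) z = (χ : G → ℂ) 1 := by
  classical
  have hsq := w_sq hM P hPz hz hq s h10
  unfold FF at hF
  set S := Finset.univ.filter (fun χ : IrrCharacter G => χ ∈ principalBlock M G) with hS
  set e := Nat.card (HH hz) with hedef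
  have hcast : ∀ χ : IrrCharacter G, (χ : G → ℂ) 1 = ((charDegree (χ : G → ℂ) : ℝ) : ℂ) := by
    intro χ
    rw [← charDegree_eq χ.2]; push_cast; rfl
  have h1 : ∑ χ ∈ S, ((s.w χ : ℝ) ^ 2 - (s.w χ : ℝ) ^ 3 / (charDegree (χ : G → ℂ) : ℝ)) = 0 := by
    have h2 : ((∑ χ ∈ S, ((s.w χ : ℝ) ^ 2 - (s.w χ : ℝ) ^ 3 / (charDegree (χ : G → ℂ) : ℝ)) : ℝ) : ℂ) = 0 := by
      rw [Finset.sum_sub_distrib]
      have h3 : ((∑ χ ∈ S, (s.w χ : ℝ) ^ 3 / (charDegree (χ : G → ℂ) : ℝ) : ℝ) : ℂ) = e := by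
        rw [← hF, Complex.ofReal_sum]
        refine Finset.sum_congr rfl fun χ _ => ?_
        rw [hcast χ]
        push_cast
        rfl
      have h4 : (∑ χ ∈ S, (s.w χ : ℝ) ^ 2 : ℝ) = (e : ℝ) := by
        have : ((∑ χ ∈ S, s.w χ ^ 2 : ℤ) : ℝ) = ((e : ℤ) : ℝ) := by rw [hsq]
        push_cast at this
        exact this
      rw [Complex.ofReal_sub, h3, h4]
      push_cast; ring
    exact_mod_cast h2
  have hval : ∀ χ ∈ S, s.w χ ≠ 0 → (χ : G → ℂ) z = s.w χ := by
    intro χ hχ hw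
    have h2 := val_w s (Finset.mem_filter.1 hχ).2 hw h10
    rwa [zp_one hzq] at h2
  have hbd : ∀ χ ∈ S, (s.w χ : ℝ) ≤ charDegree (χ : G → ℂ) := by
    intro χ hχ
    by_cases hw : s.w χ = 0
    · rw [hw]; push_cast; positivity
    · have h2 := IsChar.norm_le (IsIrr.isCharacter χ.2) z
      rw [hval χ hχ hw, hcast χ, Complex.ofReal_re] at h2
      refine le_trans ?_ h2
      have h3 : ((s.w χ : ℤ) : ℂ) = (((s.w χ : ℤ) : ℝ) : ℂ) := by push_cast; rfl
      rw [h3, Complex.norm_real]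
      exact le_abs_self _
  have hpos : ∀ χ : IrrCharacter G, (0 : ℝ) < charDegree (χ : G → ℂ) := by
    intro χ
    exact_mod_cast charDegree_pos χ.2
  rw [Finset.sum_eq_zero_iff_of_nonneg] at h1
  · -- there is another character
    have hex : ∃ χ ∈ S, χ ≠ triv G ∧ s.w χ ≠ 0 := by
      by_contra hcon
      push Not at hcon
      haveI := hM.2.1
      rw [Finset.sum_eq_single (triv G) (fun χ hχ hne => by rw [hcon χ hχ hne]; rfl)
        (fun h => absurd (Finset.mem_filter.2 ⟨Finset.mem_univ _, triv_mem⟩) h), s.hwt] at hsq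
      omega
    obtain ⟨χ, hχ, hne, hw⟩ := hex
    refine ⟨χ, hne, ?_⟩
    have h2 := h1 χ hχ
    have hw' : (s.w χ : ℝ) ≠ 0 := by exact_mod_cast hw
    have h3 : (s.w χ : ℝ) = charDegree (χ : G → ℂ) := by
      have h4 := (hpos χ).ne'
      field_simp at h2
      have h5 : (s.w χ : ℝ) ^ 2 * ((charDegree (χ : G → ℂ) : ℝ) - s.w χ) = 0 := by
        linear_combination h2
      rcases mul_eq_zero.1 h5 with h6 | h6
      · exact absurd (pow_eq_zero_iff (two_ne_zero) |>.1 h6) hw'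
      · linarith
    rw [hval χ hχ hw, hcast χ, ← h3]
    push_cast; rfl
  · intro χ hχ
    have h2 : (s.w χ : ℝ) ^ 2 - (s.w χ : ℝ) ^ 3 / (charDegree (χ : G → ℂ) : ℝ) =
        (s.w χ : ℝ) ^ 2 * ((charDegree (χ : G → ℂ) : ℝ) - s.w χ) / (charDegree (χ : G → ℂ) : ℝ) := by
      have h4 := (hpos χ).ne'
      field_simp
    rw [h2]
    apply div_nonneg (mul_nonneg (sq_nonneg _) (sub_nonneg.2 (hbd χ hχ))) (hpos χ).le

end key

end Cfsg.Agent.H13.CPj
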