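import Mathlib
import Cfsg.Agent.H13_CPj

/-! Cyclic Sylow subgroups: the exceptional configuration. -/

set_option autoImplicit false
set_option linter.unusedSectionVars false

namespace Cfsg.Agent.H13.CPk

open Cfsg Cfsg.Agent Cfsg.Agent.H3.CharIrr Cfsg.Agent.H3.CharComplete Cfsg.Agent.H3.CharInd
  Cfsg.Agent.H3.CharBasic Cfsg.Agent.H10.BlockLoc Cfsg.Agent.H10.Char Cfsg.Agent.H10.PPart
  Cfsg.Agent.H10.BlockAlg Cfsg.Agent.H10.BlockIdem Cfsg.Agent.H10.BlockHZ Cfsg.Agent.H10.RegPart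
  Cfsg.Agent.H10.BlockOrth Cfsg.Agent.H10.BlockKer Cfsg.Agent.H10.BlockSMT2 Cfsg.Agent.H10.BlockV4
  Cfsg.Agent.H10.BlockCen Cfsg.Agent.H10.BlockPrin
  Cfsg.Agent.H13.CPa Cfsg.Agent.H13.CPb Cfsg.Agent.H13.CPd Cfsg.Agent.H13.CPg Cfsg.Agent.H13.CPh
  Cfsg.Agent.H13.CPi
open scoped ComplexConjugate

/-- arithmetic -/
theorem arith1 {e : ℕ} {F t : ℝ} (he : 2 ≤ e) (h1 : (e : ℝ) * (F - t) = (e : ℝ) ^ 2 - 1)
    (hF : F ≤ 1 + ((e : ℝ) - 1) / 2) (ht : -(1 / 2) ≤ t) : e = 2 := by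
  by_contra hne
  have h3 : (3 : ℝ) ≤ e := by
    have : 3 ≤ e := by omega
    exact_mod_cast this
  have h4 : (e : ℝ) * (F - t) ≤ (e : ℝ) * (1 + ((e : ℝ) - 1) / 2 + 1 / 2) := by
    apply mul_le_mul_of_nonneg_left _ (by linarith)
    linarith
  nlinarith

theorem arith2 {m d : ℕ} (hm : 2 ≤ m) (hd : 2 ≤ d) {w t : ℤ} (hw : w = 1 ∨ w = -1) (ht : t = 1 ∨ t = -1)
    (h1 : (2 : ℝ) * (1 + (w : ℝ) ^ 3 / m - t / d) = 3) (h2 : 1 + w * m = t * d) : False := by
  have hm' : (2 : ℝ) ≤ m := by exact_mod_cast hm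
  have hd' : (2 : ℝ) ≤ d := by exact_mod_cast hd
  have hmpos : (0 : ℝ) < m := by linarith
  have hdpos : (0 : ℝ) < d := by linarith
  rcases hw with rfl | rfl <;> rcases ht with rfl | rfl
  · -- 1 + m = d
    have h3 : (d : ℝ) = 1 + m := by
      have : (d : ℤ) = 1 + m := by omega
      exact_mod_cast this
    push_cast at h1
    rw [h3] at h1
    field_simp at h1
    nlinarith
  · omega
  · have h3 : (d : ℤ) = 1 - m := by omega
    omega
  · have h3 : (m : ℝ) = 1 + d := by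
      have : (m : ℤ) = 1 + d := by omega
      exact_mod_cast this
    push_cast at h1
    rw [h3] at h1
    field_simp at h1
    nlinarith

variable {G : Type*} [Group G] [Fintype G] {p : ℕ} [hp : Fact p.Prime] {M : Ideal AlgInt} {z : G}
  {q : ℕ} [NeZero q]

theorem ss_full (hz : orderOf z = q) [Fintype (HH hz)] (h10 : (1 : ZMod q) ≠ 0)
    (h : Nat.card (HH hz) = q - 1) : ss hz 1 1 = -1 := by
  classical
  have h1 : ∑ m ∈ Finset.univ.erase (0 : ZMod q), ee q m = -1 := by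
    have h2 := sum_ee (q := q) 1
    rw [if_neg h10] at h2
    simp only [one_mul] at h2
    rw [← Finset.add_sum_erase _ _ (Finset.mem_univ (0 : ZMod q)), ee_zero] at h2
    linear_combination h2
  haveI : Nontrivial (ZMod q) := ⟨1, 0, h10⟩
  have hinj : Function.Injective (fun h : HH hz => ((h : (ZMod q)ˣ) : ZMod q)) := fun a b hab =>
    Subtype.ext (Units.ext hab)
  have h2 : Finset.univ.image (fun h : HH hz => ((h : (ZMod q)ˣ) : ZMod q)) = Finset.univ.erase (0 : ZMod q) := by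
    apply Finset.eq_of_subset_of_card_le
    · intro x hx
      obtain ⟨h, -, rfl⟩ := Finset.mem_image.1 hx
      exact Finset.mem_erase.2 ⟨(h : (ZMod q)ˣ).ne_zero, Finset.mem_univ _⟩
    · rw [Finset.card_image_of_injective _ hinj, Finset.card_erase_of_mem (Finset.mem_univ _), Finset.card_univ,
        Finset.card_univ, ZMod.card, ← Nat.card_eq_fintype_card, h]
  rw [← h1, ← h2, Finset.sum_image fun a _ b _ hab => hinj hab]
  unfold ss
  refine Finset.sum_congr rfl fun h _ => ?_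
  congr 1; ring

section key

variable (hM : IsPModular p M) [Fintype (IrrCharacter G)]
    (P : Sylow p G) (hPz : Subgroup.zpowers z = (P : Subgroup G)) (hz : orderOf z = q) {n : ℕ} (hq : q = p ^ n)
    {hzq : z ^ q = 1} (s : Str (q := q) M hzq)

include hM P hPz hq in
/-- the second conclusion -/
theorem caseB (hn : n = 1) (he : 2 ≤ Nat.card (HH hz)) (hep : Nat.card (HH hz) = p - 1)
    (hw1 : ∀ χ ∈ principalBlock M G, s.w χ = 0 ∨ s.w χ = 1 ∨ s.w χ = -1)
    (hPP : ∀ g : G, ∃ h ∈ HH hz, ∀ i j : ZMod q, (p : ZMod q) * i = 0 → (p : ZMod q) * j = 0 →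
      ∃ v, IsPPart p (zp q z i * (g * zp q z j * g⁻¹)) v ∧ IsConj v (zp q z (i + (h : ZMod q) * j))) :
    ∃ χ : IrrCharacter G, χ ≠ triv G ∧ (χ : G → ℂ) 1 = 1 := by
  classical
  haveI : Fintype (HH hz) := Fintype.ofFinite _
  haveI := hM.2.1
  by_contra hcon
  push Not at hcon
  have hqp : q = p := by rw [hq, hn, pow_one]
  have h10 : (1 : ZMod q) ≠ 0 := by
    intro h
    have h1 : ((1 : ℕ) : ZMod q) = 0 := by rw [Nat.cast_one]; exact h
    rw [ZMod.natCast_eq_zero_iff, hqp] at h1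
    exact hp.out.one_lt.ne' (Nat.dvd_one.1 h1)
  have hp1 : (p : ZMod q) * 1 = 0 := by
    have : ((p : ℕ) : ZMod q) = ((q : ℕ) : ZMod q) := by rw [hqp]
    rw [this, ZMod.natCast_self, zero_mul]
  have hkey := key hM P hPz hz hq s hPP h10 hp1 hp1 h10 h10
  rw [ss_full hz h10 (by rw [hep]; omega)] at hkey
  have hsq := w_sq hM P hPz hz hq s h10
  have hdeg := degree_rel hM hz hq s h10
  unfold FF at hkey
  set S := Finset.univ.filter (fun χ : IrrCharacter G => χ ∈ principalBlock M G) with hS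
  set e := Nat.card (HH hz) with hedef
  have hcast : ∀ χ : IrrCharacter G, (χ : G → ℂ) 1 = ((charDegree (χ : G → ℂ) : ℝ) : ℂ) := by
    intro χ
    rw [← charDegree_eq χ.2]; push_cast; rfl
  have hdeg2 : ∀ χ : IrrCharacter G, χ ≠ triv G → 2 ≤ charDegree (χ : G → ℂ) := by
    intro χ hχ
    have h1 := charDegree_pos χ.2
    have h2 : charDegree (χ : G → ℂ) ≠ 1 := by
      intro h3
      apply hcon χ hχ
      rw [← charDegree_eq χ.2, h3, Nat.cast_one]
    omega
  have htS : triv G ∈ S := Finset.mem_filter.2 ⟨Finset.mem_univ _, triv_mem⟩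
  have hL1 : s.L 1 ≠ triv G := by
    intro h
    have h1 := s.hwL 1 h10
    rw [h, s.hwt] at h1
    exact absurd h1 one_ne_zero
  have hdt : charDegree (triv G : G → ℂ) = 1 := by
    have h1 := charDegree_eq (triv G).2
    have h2 : ((charDegree ((triv G : IrrCharacter G) : G → ℂ) : ℕ) : ℂ) = 1 := by rw [h1]; rfl
    exact_mod_cast h2
  set Fr : ℝ := ∑ χ ∈ S, (s.w χ : ℝ) ^ 3 / (charDegree (χ : G → ℂ) : ℝ) with hFr
  set D := charDegree (s.L 1 : G → ℂ) with hD
  have hkeyR : (e : ℝ) * (Fr - (s.τ : ℝ) / D) = (e : ℝ) ^ 2 - 1 := by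
    have h1 : (((e : ℝ) * (Fr - (s.τ : ℝ) / D) : ℝ) : ℂ) = (((e : ℝ) ^ 2 - 1 : ℝ) : ℂ) := by
      have h2 : ((Fr : ℝ) : ℂ) = ∑ χ ∈ S, (s.w χ : ℂ) ^ 3 / (χ : G → ℂ) 1 := by
        rw [hFr, Complex.ofReal_sum]
        refine Finset.sum_congr rfl fun χ _ => ?_
        rw [hcast χ]
        push_cast
        rfl
      rw [← h2, hcast (s.L 1), ← hD] at hkey
      push_cast
      push_cast at hkey
      rw [show (-1 : ℂ) * -1 = 1 by ring] at hkey
      rw [← hkey]
      ring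
    exact_mod_cast h1
  have hsplit : Fr = 1 + ∑ χ ∈ S.erase (triv G), (s.w χ : ℝ) ^ 3 / (charDegree (χ : G → ℂ) : ℝ) := by
    rw [hFr, ← Finset.add_sum_erase _ _ htS, s.hwt, hdt]
    norm_num
  have hsq' : ∑ χ ∈ S.erase (triv G), s.w χ ^ 2 = (e : ℤ) - 1 := by
    rw [← Finset.add_sum_erase _ _ htS, s.hwt] at hsq
    linarith
  have hFle : Fr ≤ 1 + ((e : ℝ) - 1) / 2 := by
    rw [hsplit]
    have h1 : ∑ χ ∈ S.erase (triv G), (s.w χ : ℝ) ^ 3 / (charDegree (χ : G → ℂ) : ℝ) ≤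
        ∑ χ ∈ S.erase (triv G), (s.w χ : ℝ) ^ 2 / 2 := by
      apply Finset.sum_le_sum
      intro χ hχ
      have hχ' := (Finset.mem_filter.1 (Finset.mem_of_mem_erase hχ)).2
      have h2 : (2 : ℝ) ≤ charDegree (χ : G → ℂ) := by
        exact_mod_cast hdeg2 χ (Finset.ne_of_mem_erase hχ)
      rcases hw1 χ hχ' with h | h | h
      · rw [h]; norm_num
      · rw [h]
        push_cast
        rw [one_pow, one_pow]
        exact one_div_le_one_div_of_le (by norm_num) h2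
      · rw [h]
        push_cast
        have h3 : ((-1 : ℝ)) ^ 3 / (charDegree (χ : G → ℂ) : ℝ) ≤ 0 := by
          apply div_nonpos_of_nonpos_of_nonneg
          · norm_num
          · linarith
        have h4 : (0 : ℝ) ≤ (-1) ^ 2 / 2 := by norm_num
        linarith
    have h2 : ∑ χ ∈ S.erase (triv G), (s.w χ : ℝ) ^ 2 / 2 = ((e : ℝ) - 1) / 2 := by
      rw [← Finset.sum_div]
      congr 1
      have : ((∑ χ ∈ S.erase (triv G), s.w χ ^ 2 : ℤ) : ℝ) = (((e : ℤ) - 1 : ℤ) : ℝ) := by rw [hsq']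
      push_cast at this
      exact this
    linarith
  have hD2 : 2 ≤ D := hdeg2 _ hL1
  have hD2' : (2 : ℝ) ≤ D := by exact_mod_cast hD2
  have hτ2 : -(1 / 2) ≤ (s.τ : ℝ) / D := by
    rcases s.hτ with h | h
    · rw [h]
      have : (0 : ℝ) ≤ ((1 : ℤ) : ℝ) / D := by positivity
      linarith
    · rw [h]
      push_cast
      rw [neg_div]
      have := one_div_le_one_div_of_le (by norm_num : (0:ℝ) < 2) hD2'
      linarith
  have he2 := arith1 he hkeyR hFle hτ2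
  rw [he2] at hsq'
  have h1 : ∑ u : (S.erase (triv G) : Finset (IrrCharacter G)), s.w u.1 ^ 2 = 1 := by
    rw [Finset.sum_coe_sort (S.erase (triv G)) (fun χ => s.w χ ^ 2), hsq']; norm_num
  obtain ⟨⟨χ, hχ⟩, hχ1, hχ2⟩ := Cfsg.Agent.H13.CPc.P1 (d := fun u : (S.erase (triv G) : Finset (IrrCharacter G)) => s.w u.1) h1
  have hχ1' : s.w χ = 1 ∨ s.w χ = -1 := hχ1
  have hzero : ∀ u ∈ S.erase (triv G), u ≠ χ → s.w u = 0 := by
    intro u hu hne
    exact hχ2 ⟨u, hu⟩ (fun h => hne (congrArg Subtype.val h))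
  have hFr2 : Fr = 1 + (s.w χ : ℝ) ^ 3 / (charDegree (χ : G → ℂ) : ℝ) := by
    rw [hsplit, Finset.sum_eq_single χ (fun u hu hne => by rw [hzero u hu hne]; simp) (fun h => absurd hχ h)]
  have hdegR : 1 + s.w χ * (charDegree (χ : G → ℂ) : ℤ) = s.τ * (D : ℤ) := by
    rw [← Finset.add_sum_erase _ _ htS,
      Finset.sum_eq_single χ (fun u hu hne => by rw [hzero u hu hne]; simp) (fun h => absurd hχ h), s.hwt,
      ← charDegree_eq χ.2, ← charDegree_eq (s.L 1).2, ← charDegree_eq (triv G).2, hdt, ← hD] at hdeg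
    push_cast at hdeg
    have h3 : ((1 + s.w χ * (charDegree (χ : G → ℂ) : ℤ) : ℤ) : ℂ) = ((s.τ * (D : ℤ) : ℤ) : ℂ) := by
      push_cast
      linear_combination hdeg
    exact_mod_cast h3
  refine arith2 (hdeg2 χ (Finset.ne_of_mem_erase hχ)) hD2 hχ1' s.hτ ?_ hdegR
  rw [hFr2, he2] at hkeyR
  push_cast at hkeyR
  linarith

end key

end Cfsg.Agent.H13.CPk
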