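import Mathlib
import Cfsg.Prelude.Def_Local
import Cfsg.Prelude.Def_Blocks
import Cfsg.Agent.H22_PSolv
import Cfsg.Agent.H10_PPart
import Cfsg.Agent.H10_BlockKer

/-! Cyclic Sylow subgroups: group theory. -/

set_option autoImplicit false
set_option linter.unusedSectionVars false

namespace Cfsg.Agent.H13.CPl

open Cfsg Cfsg.Agent Subgroup Cfsg.Agent.H22.PSolv

universe u v

variable {p : ℕ} [hp : Fact p.Prime]

/-- all Sylow subgroups are cyclic -/
def Cyc (p : ℕ) (G : Type*) [Group G] : Prop := ∀ S : Sylow p G, IsCyclic (S : Subgroup G)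

theorem cyc_of {G : Type*} [Group G] [Finite G] (P : Sylow p G) (hP : IsCyclic (P : Subgroup G)) : Cyc p G := fun S =>
  isCyclic_of_surjective (Sylow.equiv P S) (Sylow.equiv P S).surjective

theorem cyc_sub {G : Type*} [Group G] [Finite G] (h : Cyc p G) (H : Subgroup G) : Cyc p H := by
  intro S
  obtain ⟨T, hT⟩ := (S.2.map H.subtype).exists_le_sylow
  haveI := h T
  let f : (S : Subgroup H) →* (T : Subgroup G) :=
    (H.subtype.comp (S : Subgroup H).subtype).codRestrict _ (fun x => hT ⟨x, x.2, rfl⟩)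
  refine isCyclic_of_injective f ?_
  intro a b hab
  have h1 := congrArg Subtype.val hab
  exact Subtype.ext (Subtype.ext h1)

theorem cyc_quot {G : Type*} [Group G] [Finite G] (h : Cyc p G) (N : Subgroup G) [N.Normal] : Cyc p (G ⧸ N) := by
  let P : Sylow p G := default
  haveI := h P
  refine cyc_of (P.mapSurjective (QuotientGroup.mk'_surjective N)) ?_
  exact isCyclic_of_surjective ((QuotientGroup.mk' N).subgroupMap (P : Subgroup G))
    ((QuotientGroup.mk' N).subgroupMap_surjective (P : Subgroup G))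

theorem normal_le_sylow {G : Type*} [Group G] [Finite G] {N : Subgroup G} [N.Normal] (hN : IsPGroup p N) (P : Sylow p G) :
    N ≤ P := by
  have h1 : IsPGroup p ((P : Subgroup G) ⊔ N : Subgroup G) := IsPGroup.to_sup_of_normal_right P.2 hN
  rw [← P.3 h1 le_sup_left]; exact le_sup_right

/-- the unique subgroup of order `p` -/
theorem cyc_unique {G : Type*} [Group G] [Finite G] (h : Cyc p G) {r : G} (hr : orderOf r = p) {N : Subgroup G} [N.Normal]
    (hN : IsPGroup p N) (hrN : r ∈ N) {x : G} (hx : orderOf x = p) : x ∈ zpowers r := by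
  classical
  have hxp : IsPGroup p (zpowers x) := by
    rw [IsPGroup.iff_card]
    exact ⟨1, by rw [Nat.card_zpowers, hx, pow_one]⟩
  obtain ⟨S, hS⟩ := hxp.exists_le_sylow
  have hxS : x ∈ (S : Subgroup G) := hS (mem_zpowers x)
  have hrS : r ∈ (S : Subgroup G) := normal_le_sylow hN S hrN
  haveI := h S
  haveI : Fintype (S : Subgroup G) := Fintype.ofFinite _
  have h1 := IsCyclic.card_pow_eq_one_le (α := (S : Subgroup G)) hp.out.pos
  set F := Finset.univ.filter (fun a : (S : Subgroup G) => a ^ p = 1) with hF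
  set R := Finset.univ.filter (fun a : (S : Subgroup G) => a ∈ zpowers (⟨r, hrS⟩ : (S : Subgroup G))) with hR
  have hRc : R.card = p := by
    rw [hR, ← Fintype.card_subtype, ← Nat.card_eq_fintype_card]
    change Nat.card (zpowers (⟨r, hrS⟩ : (S : Subgroup G))) = p
    rw [Nat.card_zpowers, orderOf_mk, hr]
  have hRF : R ⊆ F := by
    intro a ha
    rw [hR, Finset.mem_filter] at ha
    rw [hF, Finset.mem_filter]
    refine ⟨Finset.mem_univ _, ?_⟩
    obtain ⟨k, rfl⟩ := ha.2
    simp only
    rw [← zpow_natCast, ← zpow_mul, mul_comm, zpow_mul, zpow_natCast]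
    have : (⟨r, hrS⟩ : (S : Subgroup G)) ^ p = 1 := by
      rw [← orderOf_dvd_iff_pow_eq_one, orderOf_mk, hr]
    rw [this, one_zpow]
  have hEq := Finset.eq_of_subset_of_card_le hRF (by rw [hRc]; exact h1)
  have hxF : (⟨x, hxS⟩ : (S : Subgroup G)) ∈ F := by
    rw [hF, Finset.mem_filter]
    refine ⟨Finset.mem_univ _, ?_⟩
    rw [← orderOf_dvd_iff_pow_eq_one, orderOf_mk, hx]
  rw [← hEq, hR, Finset.mem_filter] at hxF
  obtain ⟨k, hk⟩ := hxF.2
  exact ⟨k, congrArg Subtype.val hk⟩

theorem card_comap_mk {D : Type*} [Group D] [Finite D] (K : Subgroup D) [K.Normal] (N : Subgroup (D ⧸ K)) :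
    Nat.card (N.comap (QuotientGroup.mk' K)) = Nat.card N * Nat.card K := by
  have h1 := (N.comap (QuotientGroup.mk' K)).card_mul_index
  rw [index_comap_of_surjective N (QuotientGroup.mk'_surjective K)] at h1
  have h2 := K.card_mul_index
  rw [index_eq_card K, ← N.card_mul_index] at h2
  have h3 : 0 < N.index := Nat.pos_of_ne_zero N.index_ne_zero_of_finite
  apply Nat.eq_of_mul_eq_mul_right h3
  rw [h1, ← h2]; ring

/-- the structure of a `p`-solvable group with cyclic Sylow subgroups generated by elements of order `p` -/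
theorem pair_structure {D : Type u} [Group D] [Finite D] (hD : IsPSolvable p D) (hc : Cyc p D) {x y : D}
    (hx : orderOf x = p) (hy : orderOf y = p) (hgen : closure ({x, y} : Set D) = ⊤) :
    ∃ K : Subgroup D, K.Normal ∧ ¬ p ∣ Nat.card K ∧ K.index = p := by
  classical
  have hKn : (pPrimeCore p D).Normal := H1.Nilp.pPrimeCore_normal p
  have hKc := H1.Nilp.pPrimeCore_coprime (G := D) p
  set K := pPrimeCore p D with hK
  refine ⟨K, hKn, (Nat.Prime.coprime_iff_not_dvd hp.out).1 hKc.symm, ?_⟩
  have hnotK : ∀ a : D, orderOf a = p → a ∉ K := by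
    intro a ha haK
    have h1 : p ∣ Nat.card K := by
      rw [← ha]; exact Subgroup.orderOf_dvd_natCard K haK
    exact (Nat.Prime.coprime_iff_not_dvd hp.out).1 hKc.symm h1
  have hord : ∀ a : D, orderOf a = p → orderOf (QuotientGroup.mk' K a) = p := by
    intro a ha
    apply orderOf_eq_prime
    · rw [← map_pow, ← ha, pow_orderOf_eq_one, map_one]
    · intro h
      exact hnotK a ha ((QuotientGroup.eq_one_iff a).1 h)
  have hQ := isPSolvable_quotient (p := p) K hD
  haveI : Nontrivial (D ⧸ K) := ⟨QuotientGroup.mk' K x, 1, fun h => hnotK x hx ((QuotientGroup.eq_one_iff x).1 h)⟩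
  obtain ⟨N, hN, -, hNb, hNF⟩ := exists_normal_fac hQ ⊤ top_ne_bot
  have hNp : IsPGroup p N := by
    rcases hNF with ⟨k, hk⟩ | h
    · exact IsPGroup.of_card hk
    · exfalso
      -- the preimage is a normal `p'`-subgroup
      have h1 : (N.comap (QuotientGroup.mk' K)).Normal := hN.comap _
      have h2 : (Nat.card (N.comap (QuotientGroup.mk' K))).Coprime p := by
        have h3 : Nat.card (N.comap (QuotientGroup.mk' K)) = Nat.card N * Nat.card K := by
          have h4 := card_comap_mk K N
          exact h4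
        rw [h3]
        exact Nat.Coprime.mul_left h hKc
      have h3 := H1.Nilp.le_pPrimeCore h1 h2
      apply hNb
      rw [eq_bot_iff]
      intro a ha
      obtain ⟨b, rfl⟩ := QuotientGroup.mk'_surjective K a
      exact mem_bot.2 ((QuotientGroup.eq_one_iff b).2 (h3 ha))
  obtain ⟨r, hrN, hr⟩ : ∃ r ∈ N, orderOf r = p := by
    have h1 : p ∣ Nat.card N := by
      obtain ⟨k, hk⟩ := IsPGroup.iff_card.1 hNp
      rw [hk]
      refine dvd_pow_self p ?_
      rintro rfl
      rw [pow_zero] at hk
      exact hNb (card_eq_one.1 hk)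
    obtain ⟨r, hr⟩ := exists_prime_orderOf_dvd_card' p h1
    exact ⟨r, r.2, by rw [orderOf_coe]; exact hr⟩
  have hcQ := cyc_quot hc K
  have hgen' : (⊤ : Subgroup (D ⧸ K)) ≤ zpowers r := by
    have h1 : (closure ({x, y} : Set D)).map (QuotientGroup.mk' K) = ⊤ := by
      rw [hgen, ← MonoidHom.range_eq_map, MonoidHom.range_eq_top]
      exact QuotientGroup.mk'_surjective K
    rw [← h1, MonoidHom.map_closure, closure_le, Set.image_pair]
    rintro a (rfl | rfl)
    · exact cyc_unique hcQ hr hNp hrN (hord x hx)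
    · exact cyc_unique hcQ hr hNp hrN (hord y hy)
  have htop : zpowers r = ⊤ := top_le_iff.1 hgen'
  rw [Subgroup.index_eq_card, ← card_top (G := D ⧸ K), ← htop, Nat.card_zpowers, hr]

end Cfsg.Agent.H13.CPl
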