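import Mathlib
import Cfsg.Agent.H13_CPl
import Cfsg.Agent.H13_CPb

/-! Cyclic Sylow subgroups: pairs of elements of order p. -/

set_option autoImplicit false
set_option linter.unusedSectionVars false

namespace Cfsg.Agent.H13.CPm

open Cfsg Cfsg.Agent Subgroup Cfsg.Agent.H22.PSolv Cfsg.Agent.H13.CPl Cfsg.Agent.H13.CPa Cfsg.Agent.H13.CPb

universe u v

variable {p : ℕ} [hp : Fact p.Prime]

/-- p-parts are determined modulo the complement -/
theorem ppart_conj {D : Type*} [Group D] [Finite D] (K : Subgroup D) [K.Normal] (hKp : ¬ p ∣ Nat.card K)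
    (hKi : K.index = p) {x : D} (hx : orderOf x = p) {u v : D} (hv : IsPPart p u v) {b : ℕ}
    (hub : QuotientGroup.mk' K u = QuotientGroup.mk' K (x ^ b)) : IsConj v (x ^ b) := by
  classical
  haveI : Fintype D := Fintype.ofFinite _
  have hxp : IsPGroup p (zpowers x) := by
    rw [IsPGroup.iff_card]
    exact ⟨1, by rw [Nat.card_zpowers, hx, pow_one]⟩
  have hidx : (zpowers x).index = Nat.card K := by
    have h1 := (zpowers x).card_mul_index
    rw [Nat.card_zpowers, hx, ← K.card_mul_index, hKi, mul_comm] at h1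
    exact Nat.eq_of_mul_eq_mul_right hp.out.pos h1
  let X : Sylow p D := hxp.toSylow (by rw [hidx]; exact hKp)
  have hX : (X : Subgroup D) = zpowers x := rfl
  obtain ⟨y, hvy, hcom, ⟨k, hk⟩, hy⟩ := hv
  have hvp : IsPGroup p (zpowers v) := by
    rw [IsPGroup.iff_card]
    exact ⟨k, by rw [Nat.card_zpowers, hk]⟩
  obtain ⟨S, hS⟩ := hvp.exists_le_sylow
  obtain ⟨g, hg⟩ := MulAction.exists_smul_eq D S X
  have hmem : g * v * g⁻¹ ∈ zpowers x := by
    rw [← hX, ← hg]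
    refine (H2.Basic.mem_smul_sylow S g (g * v * g⁻¹)).2 ?_
    have : g⁻¹ * (g * v * g⁻¹) * g = v := by group
    rw [this]
    exact hS (mem_zpowers v)
  obtain ⟨c, hc⟩ := hmem
  simp only at hc
  have hyK : y ∈ K := H10.BlockKer.regular_mem hp.out ⟨1, by rw [hKi, pow_one]⟩ hy
  have h1 : QuotientGroup.mk' K u = QuotientGroup.mk' K v := by
    rw [← hvy, map_mul]
    have : QuotientGroup.mk' K y = 1 := (QuotientGroup.eq_one_iff y).2 hyK
    rw [this, mul_one]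
  have hcard : Nat.card (D ⧸ K) = p := by rw [← index_eq_card, hKi]
  haveI : IsCyclic (D ⧸ K) := isCyclic_of_prime_card hcard
  have hcomm : ∀ a b : D ⧸ K, a * b = b * a := by
    intro a b
    letI := IsCyclic.commGroup (α := D ⧸ K)
    exact mul_comm a b
  have h2 : QuotientGroup.mk' K (x ^ c) = QuotientGroup.mk' K (x ^ b) := by
    rw [hc, ← hub, h1, map_mul, map_mul, hcomm (QuotientGroup.mk' K g), mul_assoc, ← map_mul, mul_inv_cancel,
      map_one, mul_one]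
  have h3 : x ^ c * (x ^ b)⁻¹ ∈ K := by
    have h4 : QuotientGroup.mk' K (x ^ c * (x ^ b)⁻¹) = 1 := by
      rw [map_mul, map_inv, h2, mul_inv_cancel]
    exact (QuotientGroup.eq_one_iff _).1 h4
  have h4 : x ^ c * (x ^ b)⁻¹ = 1 := by
    rw [← orderOf_eq_one_iff]
    have h5 := Subgroup.orderOf_dvd_natCard K h3
    have h6 : orderOf (x ^ c * (x ^ b)⁻¹) ∣ p := by
      rw [← hx]
      apply orderOf_dvd_of_mem_zpowers
      exact mul_mem (zpow_mem (mem_zpowers x) c) (inv_mem (pow_mem (mem_zpowers x) b))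
    rcases (Nat.dvd_prime hp.out).1 h6 with h7 | h7
    · exact h7
    · rw [h7] at h5
      exact absurd h5 hKp
  have h5 : x ^ c = x ^ b := by rw [mul_inv_eq_one] at h4; exact h4
  rw [isConj_iff]
  exact ⟨g, by rw [← hc, h5]⟩

theorem mem_I {q : ℕ} [NeZero q] {m : ℕ} (hq : q = p ^ (m + 1)) {i : ZMod q} (hi : (p : ZMod q) * i = 0) :
    ∃ a : ℕ, i = ((p ^ m * a : ℕ) : ZMod q) := by
  have h1 : ((p * i.val : ℕ) : ZMod q) = 0 := by
    push_cast
    rw [ZMod.natCast_zmod_val, hi]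
  rw [ZMod.natCast_eq_zero_iff] at h1
  have h3 : p * p ^ m ∣ p * i.val := by
    refine dvd_trans ?_ h1
    rw [← pow_succ']
    exact (Eq.dvd hq.symm)
  have h2 := Nat.dvd_of_mul_dvd_mul_left hp.out.pos h3
  obtain ⟨a, ha⟩ := h2
  exact ⟨a, by rw [← ha, ZMod.natCast_zmod_val]⟩

theorem pairs {G : Type u} [Group G] [Fintype G] {z : G} {q : ℕ} [NeZero q] (P : Sylow p G)
    (hPz : zpowers z = (P : Subgroup G)) (hz : orderOf z = q) {n : ℕ} (hq : q = p ^ n) (hn : 1 ≤ n)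
    (hyp : ∀ x y : G, orderOf x = p → orderOf y = p → IsPSolvable p (closure ({x, y} : Set G))) (g : G) :
    ∃ h ∈ HH hz, ∀ i j : ZMod q, (p : ZMod q) * i = 0 → (p : ZMod q) * j = 0 →
      ∃ v, IsPPart p (zp q z i * (g * zp q z j * g⁻¹)) v ∧ IsConj v (zp q z (i + (h : ZMod q) * j)) := by
  classical
  have hzq : z ^ q = 1 := by rw [← hz]; exact pow_orderOf_eq_one z
  obtain ⟨m, rfl⟩ : ∃ m, n = m + 1 := ⟨n - 1, by omega⟩
  have hPc : IsCyclic (P : Subgroup G) := by rw [← hPz]; infer_instance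
  set x := z ^ (p ^ m) with hx
  have hxo : orderOf x = p := by
    have h1 : p ^ m ∣ orderOf z := by rw [hz, hq]; exact pow_dvd_pow p (by omega)
    rw [hx, orderOf_pow_of_dvd (pow_ne_zero _ hp.out.ne_zero) h1, hz, hq, pow_succ,
      Nat.mul_div_cancel_left _ (pow_pos hp.out.pos m)]
  have hxp : ∀ a : ℕ, x ^ a = zp q z ((p ^ m * a : ℕ) : ZMod q) := by
    intro a
    rw [zp_natCast hzq, pow_mul]
  set y := g * x * g⁻¹ with hy
  have hyo : orderOf y = p := by rw [hy, H24.Tools.orderOf_conj, hxo]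
  set D := closure ({x, y} : Set G) with hD
  have hxD : x ∈ D := subset_closure (by simp)
  have hyD : y ∈ D := subset_closure (by simp)
  have hgen : closure ({(⟨x, hxD⟩ : D), (⟨y, hyD⟩ : D)} : Set D) = ⊤ := by
    have h1 := closure_closure_coe_preimage (k := ({x, y} : Set G))
    rw [← h1]
    congr 1
    ext a
    simp only [Set.mem_insert_iff, Set.mem_singleton_iff, Set.mem_preimage, Subtype.ext_iff]
  obtain ⟨K, hKn, hKp, hKi⟩ := pair_structure (hyp x y hxo hyo) (cyc_sub (cyc_of P hPc) D)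
    (x := ⟨x, hxD⟩) (y := ⟨y, hyD⟩) (by rw [orderOf_mk, hxo]) (by rw [orderOf_mk, hyo]) hgen
  have hxDo : orderOf (⟨x, hxD⟩ : D) = p := by rw [orderOf_mk, hxo]
  have hyDo : orderOf (⟨y, hyD⟩ : D) = p := by rw [orderOf_mk, hyo]
  have hcard : Nat.card (D ⧸ K) = p := by rw [← index_eq_card, hKi]
  have hxne : QuotientGroup.mk' K (⟨x, hxD⟩ : D) ≠ 1 := by
    intro h
    have h1 := Subgroup.orderOf_dvd_natCard K ((QuotientGroup.eq_one_iff _).1 h)
    rw [hxDo] at h1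
    exact hKp h1
  obtain ⟨j, hj⟩ : QuotientGroup.mk' K (⟨y, hyD⟩ : D) ∈ Submonoid.powers (QuotientGroup.mk' K (⟨x, hxD⟩ : D)) :=
    mem_powers_of_prime_card hcard hxne
  have hj' : QuotientGroup.mk' K (⟨y, hyD⟩ : D) = QuotientGroup.mk' K ((⟨x, hxD⟩ : D) ^ j) := by
    rw [map_pow]; exact hj.symm
  -- conjugacy of `x` and `x ^ j`
  have hyc : IsConj (⟨y, hyD⟩ : D) ((⟨x, hxD⟩ : D) ^ j) :=
    ppart_conj K hKp hKi hxDo ⟨1, mul_one _, Commute.one_right _, ⟨1, by rw [hyDo, pow_one]⟩, by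
      rw [orderOf_one]; intro h; exact hp.out.one_lt.ne' (Nat.dvd_one.1 h)⟩ hj'
  have hyc' : IsConj x (x ^ j) := by
    have h1 := D.subtype.map_isConj hyc
    have h2 : IsConj y (x ^ j) := h1
    have h3 : IsConj x y := isConj_iff.2 ⟨g, rfl⟩
    exact h3.trans h2
  have hc0 : ((p ^ m * 1 : ℕ) : ZMod q) ≠ 0 := by
    intro h
    rw [ZMod.natCast_eq_zero_iff, hq, mul_one] at h
    have h1 := Nat.le_of_dvd (pow_pos hp.out.pos _) h
    rw [pow_succ] at h1
    have h2 : 0 < p ^ m := pow_pos hp.out.pos _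
    have := hp.out.two_le
    nlinarith
  obtain ⟨h, hh, hhc⟩ := (isConj_iff_HH P hPz hz hc0 (j := ((p ^ m * j : ℕ) : ZMod q))).1 (by
    rw [← hxp, ← hxp, pow_one]; exact hyc')
  refine ⟨h, hh, ?_⟩
  intro i j' hi hj'
  obtain ⟨a, rfl⟩ := mem_I hq hi
  obtain ⟨b, rfl⟩ := mem_I hq hj'
  obtain ⟨v, w, hvw, hcom, hvo, hwo⟩ := H10.PPart.exists_ppart (p := p)
    ((⟨x, hxD⟩ : D) ^ a * (⟨y, hyD⟩ : D) ^ b)
  have hconj := ppart_conj K hKp hKi hxDo (u := (⟨x, hxD⟩ : D) ^ a * (⟨y, hyD⟩ : D) ^ b) (v := v) (b := a + j * b)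
    ⟨w, hvw, hcom, hvo, hwo⟩ (by
      have h1 : QuotientGroup.mk' K (⟨y, hyD⟩ : D) = QuotientGroup.mk' K (⟨x, hxD⟩ : D) ^ j := hj.symm
      rw [map_mul, map_pow, map_pow, map_pow, h1, ← pow_mul, ← pow_add])
  refine ⟨v, ⟨w, ?_, ?_, ?_, ?_⟩, ?_⟩
  · have h1 := congrArg Subtype.val hvw
    rw [← hxp, ← hxp]
    have h2 : (v : G) * w = x ^ a * y ^ b := h1
    rw [h2, hy, conj_pow]
  · exact congrArg Subtype.val hcom.eq
  · obtain ⟨k, hk⟩ := hvo
    exact ⟨k, by rw [orderOf_coe]; exact hk⟩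
  · rw [orderOf_coe]; exact hwo
  · have h1 := D.subtype.map_isConj hconj
    have h2 : IsConj (v : G) (x ^ (a + j * b)) := h1
    rw [hxp] at h2
    convert h2 using 2
    push_cast at hhc ⊢
    linear_combination -(b : ZMod q) * hhc

end Cfsg.Agent.H13.CPm
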