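import Mathlib
import Cfsg.Agent.H13_CPk
import Cfsg.Agent.H13_CPm
import Cfsg.Agent.H10_BlockKn
import Cfsg.Agent.H2_Fusion4
import Cfsg.Agent.H11_Cores

/-! Cyclic Sylow subgroups: simple groups. -/

set_option autoImplicit false
set_option linter.unusedSectionVars false

namespace Cfsg.Agent.H13.CPn

open Cfsg Cfsg.Agent Subgroup Cfsg.Agent.H22.PSolv Cfsg.Agent.H13.CPl Cfsg.Agent.H13.CPa Cfsg.Agent.H13.CPb
  Cfsg.Agent.H13.CPm Cfsg.Agent.H13.CPd Cfsg.Agent.H10.BlockKer

universe u v

variable {p : ℕ} [hp : Fact p.Prime]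

theorem eq_triv {G : Type u} [Group G] [Fintype G] {χ : IrrCharacter G} (h : ∀ g, (χ : G → ℂ) g = (χ : G → ℂ) 1) :
    χ = triv G := by
  by_contra hne
  have h1 := H3.CharIrr.ci_irr_ne χ.2 (triv G).2 (fun h => hne (Subtype.ext h))
  rw [classInner] at h1
  have h2 : ∑ g : G, (χ : G → ℂ) g * (starRingEnd ℂ) ((triv G : G → ℂ) g) = (Fintype.card G : ℂ) * (χ : G → ℂ) 1 := by
    have h3 : ∀ g : G, (χ : G → ℂ) g * (starRingEnd ℂ) ((triv G : G → ℂ) g) = (χ : G → ℂ) 1 := by
      intro g
      rw [triv_coe, map_one, mul_one, h g]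
    rw [Finset.sum_congr rfl fun g _ => h3 g, Finset.sum_const, Finset.card_univ, nsmul_eq_mul]
  rw [h2] at h1
  have h4 := H10.Char.irr_one_ne χ.2
  have h5 : (Fintype.card G : ℂ) ≠ 0 := Nat.cast_ne_zero.2 Fintype.card_ne_zero
  have h6 : (Nat.card G : ℂ) ≠ 0 := Nat.cast_ne_zero.2 Nat.card_pos.ne'
  rcases mul_eq_zero.1 h1 with h7 | h7
  · exact h6 (inv_eq_zero.1 h7)
  · rcases mul_eq_zero.1 h7 with h8 | h8
    · exact h5 h8
    · exact h4 h8

theorem exists_str {G : Type u} [Group G] [Fintype G] {M : Ideal AlgInt} (hM : IsPModular p M) {z : G} {q : ℕ} [NeZero q]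
    (P : Sylow p G) (hPz : zpowers z = (P : Subgroup G)) (hz : orderOf z = q) {n : ℕ} (hq : q = p ^ n) (hn : 1 ≤ n)
    (hzq : z ^ q = 1) : ∃ s : Str (q := q) M hzq, n = 1 →
      ∀ χ ∈ principalBlock M G, s.w χ = 0 ∨ s.w χ = 1 ∨ s.w χ = -1 := by
  by_cases h1 : n = 1
  · have hqp : q = p := by rw [hq, h1, pow_one]
    subst hqp
    obtain ⟨s, hs⟩ := CPf.exists_one hM hz hzq (by rw [hPz]; exact P.not_dvd_index)
    exact ⟨s, fun _ => hs⟩
  · obtain ⟨s⟩ := CPe.exists_two hM P hPz hz hq (by omega) hzq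
    exact ⟨s, fun h => absurd h h1⟩

theorem burnside {G : Type u} [Group G] [Fintype G] {z : G} {q : ℕ} [NeZero q]
    (P : Sylow p G) (hPz : zpowers z = (P : Subgroup G)) (hz : orderOf z = q)
    (he : Nat.card (HH hz) = 1) : HasNormalPComplement p G := by
  have hzq : z ^ q = 1 := by rw [← hz]; exact pow_orderOf_eq_one z
  by_cases h10 : (1 : ZMod q) = 0
  · -- trivial Sylow
    have hz1 : z = 1 := by
      have := (zp_eq_one hz (i := 1)).2 h10
      rwa [zp_one hzq] at this
    apply H2.Fusion4.npc_of_normalizer_le_centralizer P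
    intro y _
    rw [mem_centralizer_iff]
    intro t ht
    have h1 : t ∈ (P : Subgroup G) := ht
    rw [← hPz, hz1, zpowers_one_eq_bot, mem_bot] at h1
    rw [h1, one_mul, mul_one]
  · apply H2.Fusion4.npc_of_normalizer_le_centralizer P
    intro y hy
    have h1 : y * z * y⁻¹ ∈ (P : Subgroup G) :=
      (mem_normalizer_iff.1 hy z).1 (by rw [← hPz]; exact mem_zpowers z)
    rw [← hPz] at h1
    obtain ⟨l, hl⟩ := (mem_zpowers_iff hz _).1 h1
    obtain ⟨h, hh, hlh⟩ := (isConj_iff_HH P hPz hz h10 (j := l)).1 (by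
      rw [zp_one hzq]
      exact isConj_iff.2 ⟨y, hl⟩)
    have hh1 : h = 1 := by
      have h2 := (Subgroup.card_eq_one.1 he)
      rw [h2, mem_bot] at hh
      exact hh
    rw [hh1, Units.val_one, one_mul] at hlh
    rw [hlh, zp_one hzq] at hl
    have hyz : y * z = z * y := by
      calc y * z = (y * z * y⁻¹) * y := by group
        _ = z * y := by rw [hl]
    rw [mem_centralizer_iff]
    intro t ht
    have h3 : t ∈ (P : Subgroup G) := ht
    rw [← hPz] at h3
    obtain ⟨k, rfl⟩ := h3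
    exact ((show Commute z y from hyz.symm).zpow_left k).eq

theorem isPSolvable_of_npc {G : Type u} [Group G] [Finite G] (h : HasNormalPComplement p G) : IsPSolvable p G := by
  obtain ⟨K, hKn, hKc, k, hk⟩ := H2.Basic.npc_iff.1 h
  refine isPSolvable_of_quotient K (Or.inr ((Nat.Prime.coprime_iff_not_dvd hp.out).2 hKc).symm) ?_
  apply isPSolvable_of_fac
  left
  exact ⟨k, by rw [← index_eq_card, hk]⟩

theorem simple_aux {G : Type u} [Group G] [Fintype G] {z : G} {q : ℕ} [NeZero q] (P : Sylow p G)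
    (hPz : zpowers z = (P : Subgroup G)) (hz : orderOf z = q) {n : ℕ} (hq : q = p ^ n) (hn : 1 ≤ n)
    (hyp : ∀ x y : G, orderOf x = p → orderOf y = p → IsPSolvable p (closure ({x, y} : Set G)))
    (hsimple : ∀ N : Subgroup G, N.Normal → N = ⊥ ∨ N = ⊤) : IsPSolvable p G := by
  classical
  by_cases he1 : Nat.card (HH hz) = 1
  · exact isPSolvable_of_npc (burnside P hPz hz he1)
  have he : 2 ≤ Nat.card (HH hz) := by
    have : 0 < Nat.card (HH hz) := Nat.card_pos
    omega
  exfalso
  obtain ⟨M, hM⟩ := H10.BlockKn.exists_modular hp.out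
  haveI : Fintype (IrrCharacter G) := Fintype.ofFinite _
  have hzq : z ^ q = 1 := by rw [← hz]; exact pow_orderOf_eq_one z
  obtain ⟨s, hs⟩ := exists_str hM P hPz hz hq hn hzq
  have hPP := pairs P hPz hz hq hn hyp
  have hz1 : z ≠ 1 := by
    intro h
    rw [h, orderOf_one] at hz
    rw [← hz] at hq
    have h2 : p ^ n ≠ 1 := by
      intro h3
      rw [Nat.pow_eq_one] at h3
      rcases h3 with h3 | h3
      · exact hp.out.one_lt.ne' h3
      · omega
    exact h2 hq.symm
  have h10 : (1 : ZMod q) ≠ 0 := by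
    intro h
    have h1 := (zp_eq_one hz (i := 1)).2 h
    rw [zp_one hzq] at h1
    exact hz1 h1
  rcases CPj.dichotomy hM P hPz hz hq s hn he hPP with hF | ⟨hn1, hep⟩
  · obtain ⟨χ, hne, hχ⟩ := CPj.caseA hM P hPz hz hq s h10 he hF
    have hN := kerB_normal ({χ} : Set (IrrCharacter G))
    have hzN : z ∈ kerB ({χ} : Set (IrrCharacter G)) := by
      intro ψ hψ
      rw [Set.mem_singleton_iff] at hψ
      rw [hψ]; exact hχ
    rcases hsimple _ hN with h | h
    · rw [h, mem_bot] at hzN
      exact hz1 hzN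
    · apply hne
      apply eq_triv
      intro g
      have h1 : g ∈ kerB ({χ} : Set (IrrCharacter G)) := by rw [h]; exact mem_top g
      exact h1 χ rfl
  · obtain ⟨χ, hne, hχ⟩ := CPk.caseB hM P hPz hz hq s hn1 he hep (hs hn1) hPP
    have hN := kerB_normal ({χ} : Set (IrrCharacter G))
    obtain ⟨f, hf⟩ := H3.CharInd.IsChar.hom_units_of_one (H3.CharIrr.IsIrr.isCharacter χ.2) hχ
    rcases hsimple _ hN with h | h
    · -- `G` is abelian
      have hcomm : ∀ a b : G, a * b = b * a := by
        intro a b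
        have h1 : a * b * (b * a)⁻¹ ∈ kerB ({χ} : Set (IrrCharacter G)) := by
          intro ψ hψ
          rw [Set.mem_singleton_iff] at hψ
          rw [hψ, hf, hf]
          congr 1
          rw [map_mul, map_inv, map_mul, map_mul, map_one, mul_comm (f b) (f a), mul_inv_cancel]
        rw [h, mem_bot, mul_inv_eq_one] at h1
        exact h1
      apply he1
      rw [Subgroup.card_eq_one, eq_bot_iff]
      intro h' hh'
      obtain ⟨g, hg⟩ := hh'
      rw [hcomm g z, mul_inv_cancel_right] at hg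
      have h2 : zp q z 1 = zp q z h' := by rw [zp_one hzq]; exact hg
      exact mem_bot.2 (Units.ext (zp_injective hz h2)).symm
    · apply hne
      apply eq_triv
      intro g
      have h1 : g ∈ kerB ({χ} : Set (IrrCharacter G)) := by rw [h]; exact mem_top g
      exact h1 χ rfl

theorem simple_case {G : Type u} [Group G] [Finite G] (hc : Cyc p G)
    (hyp : ∀ x y : G, orderOf x = p → orderOf y = p → IsPSolvable p (closure ({x, y} : Set G)))
    (hsimple : ∀ N : Subgroup G, N.Normal → N = ⊥ ∨ N = ⊤) : IsPSolvable p G := by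
  by_cases hpG : p ∣ Nat.card G
  · haveI : Fintype G := Fintype.ofFinite _
    let P : Sylow p G := default
    obtain ⟨⟨z, hzP⟩, hz⟩ := (hc P).exists_generator
    have hPz : zpowers z = (P : Subgroup G) := by
      apply le_antisymm
      · rwa [zpowers_le]
      · intro y hy
        obtain ⟨k, hk⟩ := hz ⟨y, hy⟩
        exact ⟨k, congrArg Subtype.val hk⟩
    haveI : NeZero (orderOf z) := ⟨(orderOf_pos z).ne'⟩
    obtain ⟨n, hn⟩ := IsPGroup.iff_card.1 P.2
    have hq : orderOf z = p ^ n := by rw [← Nat.card_zpowers, hPz]; exact hn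
    have hn1 : 1 ≤ n := by
      by_contra hcon
      have : n = 0 := by omega
      subst this
      have h1 := P.not_dvd_index
      rw [pow_zero] at hn
      have h2 : (P : Subgroup G) = ⊥ := Subgroup.card_eq_one.1 hn
      rw [h2, index_bot] at h1
      exact h1 hpG
    exact simple_aux P hPz rfl hq hn1 hyp hsimple
  · exact isPSolvable_of_fac (Or.inr ((Nat.Prime.coprime_iff_not_dvd hp.out).2 hpG).symm)

end Cfsg.Agent.H13.CPn
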