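import Mathlib
import Cfsg.Agent.H13_CPn

/-! Cyclic Sylow subgroups: reduction to simple groups. -/

set_option autoImplicit false
set_option linter.unusedSectionVars false

namespace Cfsg.Agent.H13.CPo

open Cfsg Cfsg.Agent Subgroup Cfsg.Agent.H22.PSolv Cfsg.Agent.H13.CPl

universe u v

variable {p : ℕ} [hp : Fact p.Prime]

/-- the hypothesis on pairs -/
def Pairs (p : ℕ) (G : Type u) [Group G] : Prop :=
  ∀ x y : G, orderOf x = p → orderOf y = p → IsPSolvable p (closure ({x, y} : Set G))

theorem pairs_sub {G : Type u} [Group G] (h : Pairs p G) (N : Subgroup G) : Pairs p N := by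
  intro x y hx hy
  have h1 := h x y (by rw [orderOf_coe]; exact hx) (by rw [orderOf_coe]; exact hy)
  have h2 : (closure ({x, y} : Set N)).map N.subtype = closure ({(x : G), (y : G)} : Set G) := by
    rw [MonoidHom.map_closure, Set.image_pair]; rfl
  let f : closure ({x, y} : Set N) →* closure ({(x : G), (y : G)} : Set G) :=
    (N.subtype.comp (closure ({x, y} : Set N)).subtype).codRestrict _ (fun a => by
      rw [← h2]; exact ⟨a, a.2, rfl⟩)
  refine isPSolvable_of_injective f ?_ h1
  intro a b hab
  have h3 := congrArg Subtype.val hab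
  exact Subtype.ext (Subtype.ext h3)

theorem pairs_quot {G : Type u} [Group G] [Finite G] (h : Pairs p G) (N : Subgroup G) [N.Normal]
    (hN : (Nat.card N).Coprime p) : Pairs p (G ⧸ N) := by
  classical
  have hlift : ∀ a : G ⧸ N, orderOf a = p → ∃ x : G, orderOf x = p ∧ QuotientGroup.mk' N x = a := by
    intro a ha
    obtain ⟨g, rfl⟩ := QuotientGroup.mk'_surjective N a
    obtain ⟨x, y, hxy, hcom, ⟨k, hk⟩, hy⟩ := H10.PPart.exists_ppart (p := p) g
    have h1 : IsPPart p (QuotientGroup.mk' N g) (QuotientGroup.mk' N x) := by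
      refine ⟨QuotientGroup.mk' N y, by rw [← map_mul, hxy], hcom.map _, ?_, ?_⟩
      · have h2 := orderOf_map_dvd (QuotientGroup.mk' N) x
        rw [hk] at h2
        obtain ⟨j, -, hj⟩ := (Nat.dvd_prime_pow hp.out).1 h2
        exact ⟨j, hj⟩
      · intro h2
        exact hy (h2.trans (orderOf_map_dvd (QuotientGroup.mk' N) y))
    have h2 : IsPPart p (QuotientGroup.mk' N g) (QuotientGroup.mk' N g) :=
      ⟨1, mul_one _, Commute.one_right _, ⟨1, by rw [ha, pow_one]⟩, by
        rw [orderOf_one]; intro h; exact hp.out.one_lt.ne' (Nat.dvd_one.1 h)⟩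
    have h3 := H10.PPart.ppart_unique h1 h2
    refine ⟨x, ?_, h3⟩
    apply orderOf_eq_prime
    · have h4 : x ^ p ∈ N := by
        rw [← QuotientGroup.eq_one_iff]
        have : QuotientGroup.mk' N (x ^ p) = 1 := by rw [map_pow, h3, ← ha, pow_orderOf_eq_one]
        exact this
      rw [← orderOf_eq_one_iff]
      have h5 := Subgroup.orderOf_dvd_natCard N h4
      have h6 : orderOf (x ^ p) ∣ p ^ k := by rw [← hk]; exact orderOf_pow_dvd p
      exact Nat.eq_one_of_dvd_coprimes (Nat.Coprime.pow_right k hN) h5 h6
    · rintro rfl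
      rw [map_one] at h3
      rw [← h3, orderOf_one] at ha
      exact hp.out.one_lt.ne ha
  intro a b ha hb
  obtain ⟨x, hx, rfl⟩ := hlift a ha
  obtain ⟨y, hy, rfl⟩ := hlift b hb
  have h1 := h x y hx hy
  have h2 : (closure ({x, y} : Set G)).map (QuotientGroup.mk' N) =
      closure ({QuotientGroup.mk' N x, QuotientGroup.mk' N y} : Set (G ⧸ N)) := by
    rw [MonoidHom.map_closure, Set.image_pair]
  rw [← h2]
  exact isPSolvable_of_surjective ((QuotientGroup.mk' N).subgroupMap (closure ({x, y} : Set G)))
    ((QuotientGroup.mk' N).subgroupMap_surjective _) h1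

theorem main (n : ℕ) : ∀ (G : Type u) [Group G] [Finite G], Nat.card G = n → Cyc p G → Pairs p G →
    IsPSolvable p G := by
  induction n using Nat.strong_induction_on with
  | _ n ih =>
    intro G _ _ hn hc hP
    by_cases hK : ∃ N : Subgroup G, N.Normal ∧ N ≠ ⊥ ∧ (Nat.card N).Coprime p
    · obtain ⟨N, hN, hNb, hNc⟩ := hK
      refine isPSolvable_of_quotient N (Or.inr hNc) ?_
      refine ih _ ?_ (G ⧸ N) rfl (cyc_quot hc N) (pairs_quot hP N hNc)
      rw [← hn, ← index_eq_card, ← N.card_mul_index]
      have h1 : 1 < Nat.card N := by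
        have h2 : 0 < Nat.card N := Nat.card_pos
        have h3 : Nat.card N ≠ 1 := fun h => hNb (Subgroup.card_eq_one.1 h)
        omega
      have h2 : 0 < N.index := Nat.pos_of_ne_zero N.index_ne_zero_of_finite
      nlinarith
    · by_cases hM : ∃ N : Subgroup G, N.Normal ∧ N ≠ ⊥ ∧ N ≠ ⊤
      · obtain ⟨N, hN, hNb, hNt⟩ := hM
        have hlt : Nat.card N < n := by
          rw [← hn]
          have h1 : Nat.card N ≤ Nat.card G := Nat.card_le_card_of_injective _ N.subtype_injective
          have h2 : Nat.card N ≠ Nat.card G := fun h => hNt (Subgroup.eq_top_of_card_eq N h)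
          omega
        have h1 := ih _ hlt N rfl (cyc_sub hc N) (pairs_sub hP N)
        haveI : Nontrivial N := (Subgroup.nontrivial_iff_ne_bot N).2 hNb
        rcases pCore_or_pPrimeCore_ne_bot h1 with h | h
        · have hchar : (pCore p N).Characteristic := H11.Cores.pCore_characteristic p
          have hnorm : ((pCore p N).map N.subtype).Normal := inferInstance
          have hp' : IsPGroup p ((pCore p N).map N.subtype) := (H1.Nilp.pCore_isPGroup p).map _
          refine H23.CycSyl.isPSolvable_of_normal (default : Sylow p G) (hc _) _ hp' ?_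
          intro h2
          exact h ((map_eq_bot_iff_of_injective _ N.subtype_injective).1 h2)
        · exfalso
          apply hK
          have hchar : (pPrimeCore p N).Characteristic := H11.Cores.pPrimeCore_characteristic p
          refine ⟨(pPrimeCore p N).map N.subtype, inferInstance, ?_, ?_⟩
          · intro h2
            exact h ((map_eq_bot_iff_of_injective _ N.subtype_injective).1 h2)
          · rw [Subgroup.card_map_of_injective N.subtype_injective]
            exact H1.Nilp.pPrimeCore_coprime p
      · push Not at hM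
        refine CPn.simple_case hc hP ?_
        intro N hN
        by_cases h : N = ⊥
        · exact Or.inl h
        · exact Or.inr (hM N hN h)

theorem final {G : Type u} [Group G] [Finite G] (P : Sylow p G) (hP : IsCyclic (P : Subgroup G)) :
    IsPSolvable p G ↔ ∀ x y : G, orderOf x = p → orderOf y = p → IsPSolvable p (closure ({x, y} : Set G)) :=
  ⟨fun h _x _y _ _ => isPSolvable_subgroup _ h, fun h => main _ G rfl (cyc_of P hP) h⟩

end Cfsg.Agent.H13.CPo
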