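import Mathlib
import Cfsg.Prelude.Def_Transfer
import Cfsg.Prelude.Def_Local
import Cfsg.Agent.H10_BlockV4
import Cfsg.Agent.H10_BlockKn
import Cfsg.Agent.H10_ClsMul
import Cfsg.Agent.H22_PSolv
import Cfsg.Agent.H11_Cores
set_option autoImplicit false
set_option linter.all false

/-!
Pairs of elements of order `p` generating `p`-solvable subgroups (principal block counting).
-/

namespace Cfsg.Agent.H13.FL

open Cfsg Cfsg.Agent.H3.CharIrr Cfsg.Agent.H3.CharComplete Cfsg.Agent.H3.CharInd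
  Cfsg.Agent.H3.CharBasic Cfsg.Agent.H10.BlockLoc
  Cfsg.Agent.H10.BlockTrace Cfsg.Agent.H10.Char Cfsg.Agent.H10.BlockAlg Cfsg.Agent.H10.BlockIdem
  Cfsg.Agent.H10.BlockOrth Cfsg.Agent.H10.BlockDefect Cfsg.Agent.H10.BlockNormal
  Cfsg.Agent.H10.BlockInd Cfsg.Agent.H10.BlockMain Cfsg.Agent.H10.PPart Cfsg.Agent.H10.BlockSMT
  Cfsg.Agent.H10.BlockSMT2 Cfsg.Agent.H10.BlockHZ Cfsg.Agent.H10.BlockK Cfsg.Agent.H10.BlockKer
  Cfsg.Agent.H10.BlockPrin Cfsg.Agent.H10.Homo Cfsg.Agent.H10.BlockV4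
open scoped ComplexConjugate

theorem ineq {ι : Type*} [DecidableEq ι] (S : Finset ι) (t : ι) (ht : t ∈ S) (a : ι → ℤ) (d : ι → ℕ) (q : ℕ) (hq : 3 ≤ q)
    (hat : a t = 1) (hdt : d t = 1) (hsq : ∑ i ∈ S, a i ^ 2 = q) (hdeg : ∑ i ∈ S, a i * (d i : ℤ) = 0)
    (hd : ∀ i ∈ S, i ≠ t → a i + q ≤ d i) (hdpos : ∀ i ∈ S, 1 ≤ d i)
    (h : (q : ℝ) / 2 ≤ ∑ i ∈ S, (a i : ℝ) ^ 3 / d i) : False := by
  have hsq' : ∑ i ∈ S.erase t, a i ^ 2 = q - 1 := by
    have h1 := Finset.add_sum_erase S (fun i => a i ^ 2) ht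
    rw [hsq, hat] at h1
    linarith
  have hdeg' : ∑ i ∈ S.erase t, a i * (d i : ℤ) = -1 := by
    have h1 := Finset.add_sum_erase S (fun i => a i * (d i : ℤ)) ht
    rw [hdeg, hat, hdt] at h1
    push_cast at h1
    linarith
  have hq3 : (3 : ℤ) ≤ q := by exact_mod_cast hq
  have hqr : (3 : ℝ) ≤ q := by exact_mod_cast hq
  set c : ℝ := ((q : ℝ) - 2) / (2 * (q - 1)) with hc
  have hcpos : 0 < c := by
    apply div_pos <;> linarith
  have hle : ∀ i ∈ S.erase t, a i ≤ q - 2 := by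
    intro i hi
    have h1 : a i ^ 2 ≤ q - 1 := by
      rw [← hsq']
      exact Finset.single_le_sum (f := fun i => a i ^ 2) (fun i _ => sq_nonneg _) hi
    by_contra h2
    push Not at h2
    have h3 : (q : ℤ) - 1 ≤ a i := by linarith
    nlinarith
  have hterm : ∀ i ∈ S.erase t, (a i : ℝ) ^ 3 / d i ≤ (a i : ℝ) ^ 2 * c := by
    intro i hi
    have hi' := Finset.mem_of_mem_erase hi
    have hne := Finset.ne_of_mem_erase hi
    have hdp : (0 : ℝ) < d i := by
      have := hdpos i hi'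
      exact_mod_cast this
    by_cases hneg : a i < 0
    · have h1 : (a i : ℝ) < 0 := by exact_mod_cast hneg
      have h2 : (a i : ℝ) ^ 3 / d i ≤ 0 := by
        apply div_nonpos_of_nonpos_of_nonneg _ hdp.le
        have : (a i : ℝ) ^ 3 = a i * (a i) ^ 2 := by ring
        rw [this]
        exact mul_nonpos_of_nonpos_of_nonneg h1.le (sq_nonneg _)
      exact h2.trans (by positivity)
    · push Not at hneg
      have h0 : (0 : ℝ) ≤ a i := by exact_mod_cast hneg
      have h1 : (a i : ℝ) + q ≤ d i := by exact_mod_cast hd i hi' hne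
      have h2 : (a i : ℝ) ≤ q - 2 := by exact_mod_cast hle i hi
      have h3 : (0 : ℝ) < a i + q := by linarith
      calc (a i : ℝ) ^ 3 / d i ≤ (a i : ℝ) ^ 3 / (a i + q) := by
            apply div_le_div_of_nonneg_left (by positivity) h3 h1
        _ ≤ (a i : ℝ) ^ 2 * c := by
            rw [hc, mul_div_assoc', div_le_div_iff₀ h3 (by linarith)]
            have h4 : 0 ≤ (a i : ℝ) ^ 2 * (q * (q - 2 - a i)) := by
              apply mul_nonneg (sq_nonneg _)
              apply mul_nonneg (by linarith) (by linarith)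
            nlinarith
  obtain ⟨j, hj, hjn⟩ : ∃ j ∈ S.erase t, a j < 0 := by
    by_contra hcon
    push Not at hcon
    have : 0 ≤ ∑ i ∈ S.erase t, a i * (d i : ℤ) :=
      Finset.sum_nonneg fun i hi => mul_nonneg (hcon i hi) (by positivity)
    omega
  have hstrict : (a j : ℝ) ^ 3 / d j < (a j : ℝ) ^ 2 * c := by
    have hdp : (0 : ℝ) < d j := by
      have := hdpos j (Finset.mem_of_mem_erase hj)
      exact_mod_cast this
    have h1 : (a j : ℝ) < 0 := by exact_mod_cast hjn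
    have h2 : (a j : ℝ) ^ 3 / d j < 0 := by
      apply div_neg_of_neg_of_pos _ hdp
      have : (a j : ℝ) ^ 3 = a j * (a j) ^ 2 := by ring
      rw [this]
      have h9 : (a j : ℝ) ≠ 0 := h1.ne
      exact mul_neg_of_neg_of_pos h1 (by positivity)
    have h3 : 0 < (a j : ℝ) ^ 2 * c := by
      apply mul_pos _ hcpos
      have : (a j : ℝ) ≠ 0 := h1.ne
      positivity
    linarith
  have hsum : ∑ i ∈ S.erase t, (a i : ℝ) ^ 3 / d i < ∑ i ∈ S.erase t, (a i : ℝ) ^ 2 * c :=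
    Finset.sum_lt_sum hterm ⟨j, hj, hstrict⟩
  rw [← Finset.sum_mul] at hsum
  have hsqr : ∑ i ∈ S.erase t, (a i : ℝ) ^ 2 = q - 1 := by exact_mod_cast hsq'
  rw [hsqr] at hsum
  have h1 := Finset.add_sum_erase S (fun i => (a i : ℝ) ^ 3 / d i) ht
  rw [← h1, hat, hdt] at h
  have h2 : ((q : ℝ) - 1) * c = (q - 2) / 2 := by
    rw [hc]
    have : (q : ℝ) - 1 ≠ 0 := by linarith
    field_simp
  rw [h2] at hsum
  norm_num at h
  linarith

/-- if `x`, `h` of order `p` generate a `p`-solvable group (with abelian Sylow `p`-subgroups), then `x h` and `x⁻¹ h` are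
not both `p`-regular -/
theorem sing {L : Type*} [Group L] [Finite L] {p : ℕ} [hp : Fact p.Prime] (hp2 : p ≠ 2) (hL : IsPSolvable p L)
    (hab : ∀ S : Sylow p L, IsMulCommutative (S : Subgroup L)) {x h : L} (hx : orderOf x = p) (hh : orderOf h = p) :
    p ∣ orderOf (x * h) ∨ p ∣ orderOf (x⁻¹ * h) := by
  by_contra hcon
  push Not at hcon
  obtain ⟨h1, h2⟩ := hcon
  haveI hKn : (pPrimeCore p L).Normal := inferInstance
  set K := pPrimeCore p L with hK
  set f := QuotientGroup.mk' K with hf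
  have hfs : Function.Surjective f := QuotientGroup.mk'_surjective K
  have hsol : IsPSolvable p (L ⧸ K) := Cfsg.Agent.H22.PSolv.isPSolvable_quotient K hL
  have hbot : pPrimeCore p (L ⧸ K) = ⊥ := Cfsg.Agent.H11.Cores.pPrimeCore_quotient (G := L) p
  have hcen := Cfsg.Agent.H22.PSolv.centralizer_pCore_le hsol hbot
  set Q := pCore p (L ⧸ K) with hQ
  obtain ⟨S⟩ : Nonempty (Sylow p L) := inferInstance
  have hSab := hab S
  let S' : Sylow p (L ⧸ K) := S.mapSurjective hfs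
  have hQS : Q ≤ (S' : Subgroup (L ⧸ K)) := by
    have hQp : IsPGroup p Q := Cfsg.Agent.H11.Cores.pCore_isPGroup (G := L ⧸ K) p
    exact IsPGroup.le_sylow_of_normal hQp S'
  have hS'Q : (S' : Subgroup (L ⧸ K)) ≤ Q := by
    refine le_trans ?_ hcen
    intro y hy
    rw [Subgroup.mem_centralizer_iff]
    intro z hz
    obtain ⟨a, ha, rfl⟩ := hy
    obtain ⟨b, hb, rfl⟩ := hQS hz
    have := hSab.is_comm.comm ⟨a, ha⟩ ⟨b, hb⟩
    have h3 : a * b = b * a := congrArg Subtype.val this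
    change f b * f a = f a * f b
    rw [← map_mul, ← map_mul, h3]
  have hSn : (S' : Subgroup (L ⧸ K)) = Q := le_antisymm hS'Q hQS
  have hmem : ∀ y : L, orderOf y = p → f y ∈ Q := by
    intro y hy
    have h3 : IsPGroup p (Subgroup.zpowers (f y)) := by
      have h4 : orderOf (f y) ∣ p := by rw [← hy]; exact orderOf_map_dvd f y
      apply IsPGroup.of_card (n := (if orderOf (f y) = 1 then 0 else 1))
      rw [Nat.card_zpowers]
      rcases (Nat.dvd_prime hp.out).1 h4 with h5 | h5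
      · rw [h5]; simp
      · rw [h5, if_neg hp.out.ne_one, pow_one]
    obtain ⟨T, hT⟩ := h3.exists_le_sylow
    haveI : (S' : Subgroup (L ⧸ K)).Normal := by rw [hSn]; infer_instance
    haveI : Subsingleton (Sylow p (L ⧸ K)) := by
      exact Sylow.unique_of_normal S' ‹_› |>.instSubsingleton
    have : T = S' := Subsingleton.elim _ _
    rw [← hSn, ← this]
    exact hT (Subgroup.mem_zpowers _)
  have hfx := hmem x hx
  have hfh := hmem h hh
  have hQp : IsPGroup p Q := Cfsg.Agent.H11.Cores.pCore_isPGroup (G := L ⧸ K) p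
  have hone : ∀ y : L, f y ∈ Q → ¬ p ∣ orderOf y → f y = 1 := by
    intro y hy hyo
    obtain ⟨k, hk⟩ := hQp ⟨f y, hy⟩
    have h3 : f y ^ p ^ k = 1 := congrArg Subtype.val hk
    have h4 : orderOf (f y) ∣ p ^ k := orderOf_dvd_of_pow_eq_one h3
    have h5 : orderOf (f y) ∣ orderOf y := orderOf_map_dvd f y
    have h6 : (orderOf y).Coprime (p ^ k) := Nat.Coprime.pow_right k ((Nat.Prime.coprime_iff_not_dvd hp.out).2 hyo).symm
    exact orderOf_eq_one_iff.1 (Nat.eq_one_of_dvd_coprimes h6 h5 h4)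
  have h3 : f (x * h) = 1 := hone _ (by rw [map_mul]; exact mul_mem hfx hfh) h1
  have h4 : f (x⁻¹ * h) = 1 := hone _ (by rw [map_mul, map_inv]; exact mul_mem (inv_mem hfx) hfh) h2
  rw [map_mul, map_inv] at h4
  rw [map_mul] at h3
  have h5 : f h = f x := by
    rw [inv_mul_eq_one] at h4
    exact h4.symm
  rw [h5] at h3
  have h6 : orderOf (f x) ∣ 2 := orderOf_dvd_of_pow_eq_one (by rw [pow_two, h3])
  have h7 : orderOf (f x) ∣ p := by rw [← hx]; exact orderOf_map_dvd f x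
  have h8 : orderOf (f x) = 1 := Nat.eq_one_of_dvd_coprimes ((Nat.coprime_primes Nat.prime_two hp.out).2 (Ne.symm hp2)) h6 h7
  have h9 : x ∈ K := by
    rw [← QuotientGroup.ker_mk' K, MonoidHom.mem_ker]
    exact orderOf_eq_one_iff.1 h8
  have h10 : orderOf x ∣ Nat.card K := by
    have := orderOf_dvd_natCard (⟨x, h9⟩ : K)
    rwa [Subgroup.orderOf_mk] at this
  rw [hx] at h10
  exact (Nat.Prime.coprime_iff_not_dvd hp.out).1 (Cfsg.Agent.H11.Cores.pPrimeCore_coprime (G := L) p).symm h10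


/-- values of the characters of the principal block on `p`-singular elements -/
theorem value {G : Type*} [Group G] [Fintype G] {p : ℕ} [hp : Fact p.Prime] {M : Ideal AlgInt} (hM : IsPModular p M) {x : G} (hx : orderOf x = p)
    (hall : ∀ y : G, (∃ k : ℕ, orderOf y = p ^ k) → y ≠ 1 → IsConj y x)
    {K : Subgroup (Subgroup.centralizer ({x} : Set G))} (hKn : K.Normal) (hKp : ¬ p ∣ Nat.card K)
    (hKi : ∃ k, K.index = p ^ k) {g : G} (hg : p ∣ orderOf g)
    {ζ : IrrCharacter G} (hζ : ζ ∈ principalBlock M G) : (ζ : G → ℂ) g = (ζ : G → ℂ) x := by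
  classical
  obtain ⟨u, hu⟩ := ppart_exists (p := p) g
  obtain ⟨y, hxy, hc, huo, hyo⟩ := hu
  have hu1 : u ≠ 1 := by
    rintro rfl
    apply hyo
    rw [← one_mul y, hxy]; exact hg
  obtain ⟨b, hb⟩ := isConj_iff.1 (hall u huo hu1)
  have hbg : b * g * b⁻¹ = x * (b * y * b⁻¹) := by rw [← hb, ← hxy]; group
  have hbC : b * y * b⁻¹ ∈ Subgroup.centralizer ({x} : Set G) := by
    rw [Subgroup.mem_centralizer_singleton_iff, ← hb]
    have e : u * y = y * u := hc
    calc b * y * b⁻¹ * (b * u * b⁻¹) = b * (y * u) * b⁻¹ := by group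
      _ = b * (u * y) * b⁻¹ := by rw [e]
      _ = b * u * b⁻¹ * (b * y * b⁻¹) := by group
  have h2 := singular_complement hM ⟨1, by rw [hx, pow_one]⟩ hKn hKp hKi ⟨b * y * b⁻¹, hbC⟩ (by
    rw [Subgroup.orderOf_mk, orderOf_conj]; exact hyo) hζ
  rw [← h2]
  show _ = (ζ : G → ℂ) (x * (b * y * b⁻¹))
  rw [← hbg, irr_class ζ.2]

theorem main {G : Type*} [Group G] [Fintype G] [IsSimpleGroup G] {p : ℕ} [hp : Fact p.Prime]
    (hp2 : p ≠ 2) (P : Sylow p G) {x : G} (hx : orderOf x = p)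
    (hall : ∀ y : G, (∃ k : ℕ, orderOf y = p ^ k) → y ≠ 1 → IsConj y x)
    {K : Subgroup (Subgroup.centralizer ({x} : Set G))} (hKn : K.Normal) (hKp : ¬ p ∣ Nat.card K)
    (hKi : K.index = Nat.card P)
    (hsing : ∀ g : G, p ∣ orderOf (x * (g * x * g⁻¹)) ∨ p ∣ orderOf (x⁻¹ * (g * x * g⁻¹))) : False := by
  classical
  obtain ⟨M, hM⟩ := Cfsg.Agent.H10.BlockKn.exists_modular hp.out
  haveI := hM.2.1
  haveI : Fintype (IrrCharacter G) := Fintype.ofFinite _
  set q := Nat.card P with hq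
  have hqp : ∃ k, q = p ^ k := ⟨_, P.card_eq_multiplicity⟩
  have hKi' : ∃ k, K.index = p ^ k := by rw [hKi]; exact hqp
  have hx1 : x ≠ 1 := by rintro rfl; rw [orderOf_one] at hx; exact hp.out.one_lt.ne hx
  have hpx : p ∣ orderOf x := by rw [hx]
  have hpq : p ∣ q := by
    obtain ⟨a, ha⟩ := conj_into_sylow P (s := x) ⟨1, by rw [hx, pow_one]⟩
    have h1 := orderOf_dvd_natCard (⟨_, ha⟩ : (P : Subgroup G))
    rw [Subgroup.orderOf_mk, orderOf_conj, hx] at h1
    exact h1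
  have hq3 : 3 ≤ q := by
    have h1 : p ≤ q := Nat.le_of_dvd Nat.card_pos hpq
    have h2 := hp.out.two_le
    omega
  have hval : ∀ ζ ∈ principalBlock M G, ∀ g : G, p ∣ orderOf g → (ζ : G → ℂ) g = (ζ : G → ℂ) x :=
    fun ζ hζ g hg => value hM hx hall hKn hKp hKi' hg hζ
  -- integrality
  have hdpos : ∀ ζ : IrrCharacter G, 1 ≤ charDegree (ζ : G → ℂ) := fun ζ => by
    have := charDegree_pos ζ.2
    omega
  have hmult : ∀ ζ ∈ principalBlock M G, ∃ m : ℕ, (charDegree (ζ : G → ℂ) : ℂ) + ((q : ℂ) - 1) * (ζ : G → ℂ) x = q * m := by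
    intro ζ hζ
    haveI : Fintype (P : Subgroup G) := Fintype.ofFinite _
    obtain ⟨m, hm⟩ := sum_char_subgroup (isChar_of_irr ζ.2) (P : Subgroup G)
    refine ⟨m, ?_⟩
    rw [← hm]
    rw [← Finset.add_sum_erase Finset.univ (fun u : (P : Subgroup G) => (ζ : G → ℂ) u) (Finset.mem_univ 1)]
    rw [Subgroup.coe_one, charDegree_eq ζ.2]
    congr 1
    have h7 : ∀ u ∈ Finset.univ.erase (1 : (P : Subgroup G)), (ζ : G → ℂ) u = (ζ : G → ℂ) x := by
      intro u hu
      have hu1 : (u : G) ≠ 1 := fun h => (Finset.mem_erase.1 hu).1 (Subtype.ext h)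
      obtain ⟨k, hk⟩ := (IsPGroup.iff_orderOf.1 P.isPGroup') u
      have hk' : orderOf (u : G) = p ^ k := by rw [Subgroup.orderOf_coe]; exact hk
      obtain ⟨b, hb⟩ := isConj_iff.1 (hall u ⟨k, hk'⟩ hu1)
      rw [← hb, irr_class ζ.2]
    rw [Finset.sum_congr rfl h7, Finset.sum_const, Finset.card_erase_of_mem (Finset.mem_univ _),
      Finset.card_univ, ← Nat.card_eq_fintype_card, nsmul_eq_mul]
    have : Nat.card (P : Subgroup G) = q := rfl
    rw [this, Nat.cast_sub (by omega)]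
    simp
  have hq1 : ((q : ℂ) - 1) ≠ 0 := by
    intro h
    have h1 : (q : ℂ) = 1 := by linear_combination h
    have h2 : q = 1 := by exact_mod_cast h1
    omega
  have hint : ∀ ζ : IrrCharacter G, ∃ a : ℤ, ζ ∈ principalBlock M G → ((ζ : G → ℂ) x = a ∧
      ∃ m : ℤ, (charDegree (ζ : G → ℂ) : ℤ) - a = q * m) := by
    intro ζ
    by_cases hζ : ζ ∈ principalBlock M G
    · obtain ⟨m, hm⟩ := hmult ζ hζ
      have h1 : (ζ : G → ℂ) x = (((((q : ℚ) * m - charDegree (ζ : G → ℂ)) / (q - 1) : ℚ)) : ℂ) := by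
        push_cast
        rw [eq_div_iff hq1]
        linear_combination hm
      obtain ⟨a, ha⟩ := Cfsg.Agent.H3.CharInt.exists_int_of_isIntegral (by
        rw [← h1]; exact IsChar.isIntegral (isChar_of_irr ζ.2) x)
      rw [ha] at h1
      refine ⟨a, fun _ => ⟨by rw [h1]; norm_cast, m - a, ?_⟩⟩
      rw [h1] at hm
      have h2 : (charDegree (ζ : G → ℂ) : ℤ) + ((q : ℤ) - 1) * a = q * m := by exact_mod_cast hm
      linear_combination h2
    · exact ⟨0, fun h => absurd h hζ⟩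
  choose a ha using hint
  have hax : ∀ ζ ∈ principalBlock M G, (ζ : G → ℂ) x = a ζ := fun ζ h => (ha ζ h).1
  have hd1 : charDegree ((triv G : IrrCharacter G) : G → ℂ) = 1 := by
    have := charDegree_eq (triv G).2
    rw [triv_coe] at this
    exact_mod_cast this
  have hat : a (triv G) = 1 := by
    have := hax (triv G) triv_mem
    rw [triv_coe] at this
    exact_mod_cast this.symm
  have hdeg_gt : ∀ ζ ∈ principalBlock M G, ζ ≠ triv G → a ζ + q ≤ charDegree (ζ : G → ℂ) := by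
    intro ζ hζ hne
    obtain ⟨m, hm⟩ := (ha ζ hζ).2
    have h1 : a ζ ≤ charDegree (ζ : G → ℂ) := by
      have h2 := IsChar.norm_le (isChar_of_irr ζ.2) x
      rw [hax ζ hζ, ← charDegree_eq ζ.2] at h2
      have h3 : ((a ζ : ℝ)) ≤ (charDegree (ζ : G → ℂ) : ℝ) := by
        calc (a ζ : ℝ) ≤ |(a ζ : ℝ)| := le_abs_self _
          _ = ‖(a ζ : ℂ)‖ := by rw [Complex.norm_intCast]
          _ ≤ _ := h2
          _ = _ := by simp
      exact_mod_cast h3
    have h2 : a ζ ≠ charDegree (ζ : G → ℂ) := by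
      intro h
      have hxker : (ζ : G → ℂ) x = (ζ : G → ℂ) 1 := by
        rw [hax ζ hζ, h, ← charDegree_eq ζ.2]; norm_cast
      have hxm : x ∈ kerB ({ζ} : Set (IrrCharacter G)) := by
        intro χ hχ
        rw [Set.mem_singleton_iff.1 hχ]; exact hxker
      have hn := kerB_normal ({ζ} : Set (IrrCharacter G))
      have htop : kerB ({ζ} : Set (IrrCharacter G)) = ⊤ := by
        rcases hn.eq_bot_or_eq_top with h3 | h3
        · rw [h3, Subgroup.mem_bot] at hxm; exact absurd hxm hx1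
        · exact h3
      have hconst : ∀ g : G, (ζ : G → ℂ) g = (ζ : G → ℂ) 1 := by
        intro g
        have : g ∈ kerB ({ζ} : Set (IrrCharacter G)) := by rw [htop]; trivial
        exact this ζ rfl
      have h4 := ci_irr_ne ζ.2 (triv G).2 (fun h => hne (Subtype.ext h))
      rw [classInner] at h4
      have h5 : ∑ g : G, (ζ : G → ℂ) g * (starRingEnd ℂ) (((triv G : IrrCharacter G) : G → ℂ) g) = Nat.card G * (ζ : G → ℂ) 1 := by
        rw [Finset.sum_congr rfl (g := fun _ => (ζ : G → ℂ) 1) (by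
          intro g _
          rw [hconst g, triv_coe, map_one, mul_one])]
        rw [Finset.sum_const, Finset.card_univ, nsmul_eq_mul, Nat.card_eq_fintype_card]
      rw [h5, ← mul_assoc, inv_mul_cancel₀ (Nat.cast_ne_zero.2 Nat.card_pos.ne'), one_mul] at h4
      exact IsIrr.one_ne_zero ζ.2 h4
    have h3 : 0 < (charDegree (ζ : G → ℂ) : ℤ) - a ζ := by
      have := lt_of_le_of_ne h1 h2; linarith
    rw [hm] at h3
    have hqpos : (0 : ℤ) < q := by exact_mod_cast (by omega : 0 < q)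
    have h4 : 0 < m := by
      by_contra h5
      push Not at h5
      nlinarith
    nlinarith
  -- the finite set of characters of the principal block
  set S : Finset (IrrCharacter G) := Finset.univ.filter (fun ζ => ζ ∈ principalBlock M G) with hS
  have hmemS : ∀ ζ, ζ ∈ S ↔ ζ ∈ principalBlock M G := fun ζ => by simp [hS]
  have htS : triv G ∈ S := (hmemS _).2 triv_mem
  have hsq : ∑ ζ ∈ S, a ζ ^ 2 = q := by
    have h1 := principal_norm_compl hM ⟨1, by rw [hx, pow_one]⟩ hKn hKp hKi' 1 (by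
      rw [orderOf_one]; intro h; exact hp.out.one_lt.ne' (Nat.dvd_one.1 h))
    rw [hKi, ← Finset.sum_filter] at h1
    have h2 : ((∑ ζ ∈ S, a ζ ^ 2 : ℤ) : ℂ) = ((q : ℕ) : ℂ) := by
      push_cast
      rw [← h1]
      refine Finset.sum_congr rfl fun ζ hζ => ?_
      rw [Subgroup.coe_one, mul_one, hax ζ ((hmemS ζ).1 hζ)]
      simp [sq]
    exact_mod_cast h2
  have horth : ∀ y : G, ¬ p ∣ orderOf y → ∑ ζ ∈ S, (a ζ : ℂ) * (ζ : G → ℂ) y = 0 := by
    intro y hy
    have h1 := weak_orth' hM (principal_isPBlock (M := M) (G := G)) y x hy hpx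
    rw [← Finset.sum_filter] at h1
    rw [← h1]
    exact Finset.sum_congr rfl fun ζ hζ => by rw [hax ζ ((hmemS ζ).1 hζ)]
  have hdeg : ∑ ζ ∈ S, a ζ * (charDegree (ζ : G → ℂ) : ℤ) = 0 := by
    have h1 := horth 1 (by rw [orderOf_one]; intro h; exact hp.out.one_lt.ne' (Nat.dvd_one.1 h))
    have h2 : ((∑ ζ ∈ S, a ζ * (charDegree (ζ : G → ℂ) : ℤ) : ℤ) : ℂ) = 0 := by
      push_cast
      rw [← h1]
      exact Finset.sum_congr rfl fun ζ _ => by rw [charDegree_eq ζ.2]
    exact_mod_cast h2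
  have hsum : ∀ y : G, ∑ ζ ∈ S, (a ζ : ℂ) * (ζ : G → ℂ) y = if p ∣ orderOf y then (q : ℂ) else 0 := by
    intro y
    by_cases hy : p ∣ orderOf y
    · rw [if_pos hy]
      have h2 : ((∑ ζ ∈ S, a ζ ^ 2 : ℤ) : ℂ) = ((q : ℕ) : ℂ) := by rw [hsq]; norm_cast
      rw [← h2]; push_cast
      refine Finset.sum_congr rfl fun ζ hζ => ?_
      rw [hval ζ ((hmemS ζ).1 hζ) y hy, hax ζ ((hmemS ζ).1 hζ), sq]
    · rw [if_neg hy]; exact horth y hy
  -- the counting formula, for an element `z` of order divisible by `p`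
  have hcount : ∀ z : G, p ∣ orderOf z → (q : ℂ) * (Finset.univ.filter (fun g : G => p ∣ orderOf (z * (g * x * g⁻¹)))).card =
      (Nat.card G : ℂ) * ∑ ζ ∈ S, (a ζ : ℂ) ^ 3 / charDegree (ζ : G → ℂ) := by
    intro z hz
    have h1 : ∑ g : G, ∑ ζ ∈ S, (a ζ : ℂ) * (ζ : G → ℂ) (z * (g * x * g⁻¹)) =
        (q : ℂ) * (Finset.univ.filter (fun g : G => p ∣ orderOf (z * (g * x * g⁻¹)))).card := by
      rw [Finset.sum_congr rfl (fun g _ => hsum (z * (g * x * g⁻¹))), ← Finset.sum_filter,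
        Finset.sum_const, nsmul_eq_mul, mul_comm]
    rw [← h1, Finset.sum_comm, Finset.mul_sum]
    refine Finset.sum_congr rfl fun ζ hζ => ?_
    have hζ' := (hmemS ζ).1 hζ
    have h2 := Cfsg.Agent.H10.ClsMul.conj_sum ζ.2 z x
    rw [hval ζ hζ' z hz, hax ζ hζ', ← charDegree_eq ζ.2] at h2
    have h3 : (charDegree (ζ : G → ℂ) : ℂ) ≠ 0 := by
      have := hdpos ζ
      exact_mod_cast (by omega : charDegree (ζ : G → ℂ) ≠ 0)
    rw [← Finset.mul_sum, mul_div_assoc', eq_div_iff h3]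
    linear_combination (a ζ : ℂ) * h2
  have hc1 := hcount x hpx
  have hc2 := hcount x⁻¹ (by rw [orderOf_inv]; exact hpx)
  set F1 := Finset.univ.filter (fun g : G => p ∣ orderOf (x * (g * x * g⁻¹))) with hF1
  set F2 := Finset.univ.filter (fun g : G => p ∣ orderOf (x⁻¹ * (g * x * g⁻¹))) with hF2
  have hF : Nat.card G ≤ F1.card + F2.card := by
    rw [Nat.card_eq_fintype_card, ← Finset.card_univ]
    refine le_trans (Finset.card_le_card ?_) (Finset.card_union_le F1 F2)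
    intro g _
    rw [Finset.mem_union, hF1, hF2, Finset.mem_filter, Finset.mem_filter]
    rcases hsing g with h | h
    · exact Or.inl ⟨Finset.mem_univ _, h⟩
    · exact Or.inr ⟨Finset.mem_univ _, h⟩
  have hc1' : (q : ℝ) * F1.card = (Nat.card G : ℝ) * ∑ ζ ∈ S, (a ζ : ℝ) ^ 3 / charDegree (ζ : G → ℂ) := by
    exact_mod_cast hc1
  have hc2' : (q : ℝ) * F2.card = (Nat.card G : ℝ) * ∑ ζ ∈ S, (a ζ : ℝ) ^ 3 / charDegree (ζ : G → ℂ) := by
    exact_mod_cast hc2
  have hGpos : (0 : ℝ) < Nat.card G := by exact_mod_cast Nat.card_pos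
  have hfin : (q : ℝ) / 2 ≤ ∑ ζ ∈ S, (a ζ : ℝ) ^ 3 / charDegree (ζ : G → ℂ) := by
    have h1 : (Nat.card G : ℝ) ≤ F1.card + F2.card := by exact_mod_cast hF
    have h2 : (q : ℝ) * Nat.card G ≤ 2 * ((Nat.card G : ℝ) * ∑ ζ ∈ S, (a ζ : ℝ) ^ 3 / charDegree (ζ : G → ℂ)) := by
      have hq0 : (0 : ℝ) ≤ q := by positivity
      nlinarith
    have h3 : (Nat.card G : ℝ) * ((q : ℝ) / 2) ≤ (Nat.card G : ℝ) * ∑ ζ ∈ S, (a ζ : ℝ) ^ 3 / charDegree (ζ : G → ℂ) := by
      linarith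
    exact le_of_mul_le_mul_left h3 hGpos
  exact ineq S (triv G) htS a (fun ζ => charDegree (ζ : G → ℂ)) q hq3 hat hd1 hsq hdeg
    (fun ζ hζ hne => hdeg_gt ζ ((hmemS ζ).1 hζ) hne) (fun ζ _ => hdpos ζ) hfin


/-- Sylow subgroups of subgroups are abelian if the Sylow subgroups of `G` are. -/
theorem sylow_comm {G : Type*} [Group G] [Finite G] {p : ℕ} [hp : Fact p.Prime] (P : Sylow p G)
    (hP : IsMulCommutative (P : Subgroup G)) (L : Subgroup G) (S : Sylow p L) : IsMulCommutative (S : Subgroup L) := by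
  have h1 : IsPGroup p ((S : Subgroup L).map L.subtype) := S.isPGroup'.map _
  obtain ⟨g, hg⟩ := Cfsg.Agent.H4.Util.exists_conj_le P _ h1
  refine ⟨⟨fun a b => ?_⟩⟩
  have h2 : ∀ c : (S : Subgroup L), g * ((c : L) : G) * g⁻¹ ∈ (P : Subgroup G) := by
    intro c
    exact hg _ ⟨(c : L), c.2, rfl⟩
  have h3 := congrArg Subtype.val (hP.is_comm.comm ⟨_, h2 a⟩ ⟨_, h2 b⟩)
  apply Subtype.ext; apply Subtype.ext
  change ((a : L) : G) * ((b : L) : G) = ((b : L) : G) * ((a : L) : G)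
  have h4 : (g * ((a : L) : G) * g⁻¹) * (g * ((b : L) : G) * g⁻¹) = (g * ((b : L) : G) * g⁻¹) * (g * ((a : L) : G) * g⁻¹) := h3
  have h5 : g * (((a : L) : G) * ((b : L) : G)) * g⁻¹ = g * (((b : L) : G) * ((a : L) : G)) * g⁻¹ := by
    calc g * (((a : L) : G) * ((b : L) : G)) * g⁻¹ = (g * ((a : L) : G) * g⁻¹) * (g * ((b : L) : G) * g⁻¹) := by group
      _ = (g * ((b : L) : G) * g⁻¹) * (g * ((a : L) : G) * g⁻¹) := h4
      _ = _ := by group
  exact mul_left_cancel (mul_right_cancel h5)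

/-- the normal `p`-complement of the centralizer -/
theorem complement_of {G : Type*} [Group G] [Finite G] {p : ℕ} [hp : Fact p.Prime] (P : Sylow p G) (C : Subgroup G)
    (hPC : (P : Subgroup G) ≤ C) (h : HasNormalPComplement p C) :
    ∃ K : Subgroup C, K.Normal ∧ ¬ p ∣ Nat.card K ∧ K.index = Nat.card P := by
  obtain ⟨Q, N, hN, hc⟩ := h
  refine ⟨N, hN, ?_, ?_⟩
  · have h1 : Nat.card N = (Q : Subgroup C).index := hc.index_eq_card.symm
    rw [h1]
    exact Q.not_dvd_index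
  · have h1 : N.index = Nat.card Q := hc.symm.index_eq_card
    rw [h1, Q.card_eq_multiplicity, P.card_eq_multiplicity]
    congr 1
    apply le_antisymm
    · exact (Nat.factorization_le_iff_dvd Nat.card_pos.ne' Nat.card_pos.ne').2 (Subgroup.card_subgroup_dvd_card C) p
    · have h2 : p ^ (Nat.card G).factorization p ∣ Nat.card C := by
        rw [← P.card_eq_multiplicity]
        exact Subgroup.card_dvd_of_le hPC
      exact (Nat.Prime.pow_dvd_iff_le_factorization hp.out Nat.card_pos.ne').1 h2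

theorem result {G : Type*} [Group G] [Finite G] [IsSimpleGroup G] {p : ℕ} [hp : Fact p.Prime] (P : Sylow p G)
    (hP1 : (P : Subgroup G) ≠ ⊥) (hPe : Cfsg.IsElementaryAbelian p (P : Subgroup G))
    (hconj : ∀ x ∈ (P : Subgroup G), ∀ y ∈ (P : Subgroup G), x ≠ 1 → y ≠ 1 → ∃ g : G, g * x * g⁻¹ = y)
    (hb : ∀ x ∈ (P : Subgroup G), orderOf x = p → Cfsg.HasNormalPComplement p ↥(Subgroup.centralizer ({x} : Set G)))
    (hc : ∀ x y : G, orderOf x = p → orderOf y = p → Cfsg.IsPSolvable p ↥(Subgroup.closure ({x, y} : Set G))) :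
    p = 2 := by
  by_contra hp2
  haveI : Fintype G := Fintype.ofFinite G
  obtain ⟨x, hxP, hx1⟩ := (Subgroup.ne_bot_iff_exists_ne_one.1 hP1) |> fun ⟨x, hx⟩ => (⟨x.1, x.2, fun h => hx (Subtype.ext h)⟩ : ∃ x : G, x ∈ (P : Subgroup G) ∧ x ≠ 1)
  have hord : ∀ y ∈ (P : Subgroup G), y ≠ 1 → orderOf y = p := fun y hy hy1 => orderOf_eq_prime (hPe.2 y hy) hy1
  have hx := hord x hxP hx1
  have hall : ∀ y : G, (∃ k : ℕ, orderOf y = p ^ k) → y ≠ 1 → IsConj y x := by
    intro y hy hy1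
    obtain ⟨b, hb'⟩ := conj_into_sylow P hy
    have h1 : b * y * b⁻¹ ≠ 1 := by
      intro h
      apply hy1
      rw [mul_inv_eq_one] at h
      exact mul_eq_left.1 h
    obtain ⟨c, hc'⟩ := hconj _ hb' x hxP h1 hx1
    exact isConj_iff.2 ⟨c * b, by rw [← hc']; group⟩
  have hPC : (P : Subgroup G) ≤ Subgroup.centralizer ({x} : Set G) := by
    intro y hy
    rw [Subgroup.mem_centralizer_singleton_iff]
    exact congrArg Subtype.val (hPe.1.is_comm.comm ⟨y, hy⟩ ⟨x, hxP⟩)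
  obtain ⟨K, hKn, hKp, hKi⟩ := complement_of P _ hPC (hb x hxP hx)
  refine main hp2 P hx hall hKn hKp hKi ?_
  intro g
  have hy : orderOf (g * x * g⁻¹) = p := by rw [orderOf_conj, hx]
  have hs := hc x (g * x * g⁻¹) hx hy
  have hx' : x ∈ Subgroup.closure ({x, g * x * g⁻¹} : Set G) := Subgroup.subset_closure (by simp)
  have hy' : g * x * g⁻¹ ∈ Subgroup.closure ({x, g * x * g⁻¹} : Set G) := Subgroup.subset_closure (by simp)
  have h1 := sing hp2 hs (fun S => sylow_comm P hPe.1 _ S) (x := ⟨x, hx'⟩) (h := ⟨_, hy'⟩)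
    (by rw [Subgroup.orderOf_mk, hx]) (by rw [Subgroup.orderOf_mk, hy])
  rw [← Subgroup.orderOf_coe, ← Subgroup.orderOf_coe] at h1
  exact h1

end Cfsg.Agent.H13.FL
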