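import Mathlib

/-! McLaughlin transvection groups: abstract pairs. -/

namespace Cfsg.Agent.H13.McL

open Module

variable {F V V' : Type*} [Field F] [AddCommGroup V] [Module F V] [AddCommGroup V'] [Module F V']

structure Sys (e : V →ₗ[F] V' →ₗ[F] F) (T : V → V' → Prop) : Prop where
  zero : ∀ {v φ}, T v φ → e v φ = 0
  ne1 : ∀ {v φ}, T v φ → v ≠ 0
  ne2 : ∀ {v φ}, T v φ → φ ≠ 0
  smul1 : ∀ {v φ}, T v φ → ∀ {c : F}, c ≠ 0 → T (c • v) φ
  smul2 : ∀ {v φ}, T v φ → ∀ {c : F}, c ≠ 0 → T v (c • φ)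
  conj : ∀ {v φ w ψ}, T v φ → T w ψ → ∀ c : F, T (w + (c * e w φ) • v) (ψ - (c * e v ψ) • φ)
  add1 : ∀ {v w φ}, T v φ → T w φ → v + w ≠ 0 → T (v + w) φ
  add2 : ∀ {v φ ψ}, T v φ → T v ψ → φ + ψ ≠ 0 → T v (φ + ψ)
  quad : ∀ {u a χ δ}, T u χ → T (u + a) (χ + δ) → T (u + a + a) (χ + δ + δ) →
    e a χ = 0 → e u δ = 0 → e a δ = 0 → a ≠ 0 → δ ≠ 0 → T a δ
  hN : ∀ X : Submodule F V, (∀ v φ, T v φ → v ∈ X ∨ ∀ x ∈ X, e x φ = 0) →
    ∀ v φ, T v φ → v ∈ X → ∃ x ∈ X, e x φ ≠ 0
  hC : ∀ P : V → V' → Prop, (∀ v φ w ψ, T v φ → T w ψ → P v φ → (e w φ ≠ 0 ∨ e v ψ ≠ 0) → P w ψ) →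
    (∃ v φ, T v φ ∧ P v φ) → ∀ v φ, T v φ → P v φ
  two : (2 : F) ≠ 0

variable {e : V →ₗ[F] V' →ₗ[F] F} {T : V → V' → Prop}

theorem Sys.flip (S : Sys e T) : Sys e.flip (fun φ v => T v φ) where
  zero h := by simpa using S.zero h
  ne1 h := S.ne2 h
  ne2 h := S.ne1 h
  smul1 h _ hc := S.smul2 h hc
  smul2 h _ hc := S.smul1 h hc
  conj := by
    intro φ v ψ w h1 h2 c
    have := S.conj h1 h2 (-c)
    simp only [LinearMap.flip_apply]
    have e1 : w - (c * e w φ) • v = w + (-c * e w φ) • v := by rw [neg_mul, neg_smul]; abel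
    have e2 : ψ + (c * e v ψ) • φ = ψ - (-c * e v ψ) • φ := by rw [neg_mul, neg_smul]; abel
    rw [e1, e2]; exact this
  add1 h1 h2 h := S.add2 h1 h2 h
  add2 h1 h2 h := S.add1 h1 h2 h
  quad := by
    intro u a χ δ h1 h2 h3 h4 h5 h6 h7 h8
    simp only [LinearMap.flip_apply] at h4 h5 h6
    exact S.quad h1 h2 h3 h5 h4 h6 h8 h7
  hN := by
    intro Y hY φ v h hφ
    by_contra hcon
    push Not at hcon
    let X : Submodule F V :=
      { carrier := {x | ∀ y ∈ Y, e x y = 0}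
        add_mem' := by
          intro a b ha hb y hy
          rw [map_add, LinearMap.add_apply, ha y hy, hb y hy, add_zero]
        zero_mem' := by intro y _; simp
        smul_mem' := by
          intro c x hx y hy
          rw [map_smul, LinearMap.smul_apply, hx y hy, smul_zero] }
    have hX : ∀ v φ, T v φ → v ∈ X ∨ ∀ x ∈ X, e x φ = 0 := by
      intro w ψ hw
      rcases hY ψ w hw with h1 | h1
      · right
        intro x hx
        exact hx ψ h1
      · left
        intro y hy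
        have := h1 y hy
        simpa using this
    have hvX : v ∈ X := by
      intro y hy
      have := hcon y hy
      simpa using this
    obtain ⟨x, hx, hx2⟩ := S.hN X hX v φ h hvX
    exact hx2 (hx φ hφ)
  hC := by
    intro P hP ⟨φ, v, h1, h2⟩ ψ w h3
    refine S.hC (fun v φ => P φ v) ?_ ⟨v, φ, h1, h2⟩ w ψ h3
    intro v φ w ψ h4 h5 h6 h7
    refine hP φ v ψ w h4 h5 h6 ?_
    simp only [LinearMap.flip_apply]
    exact h7.symm
  two := S.two

namespace Sys

/-- common kernel of the axes -/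
def R (e : V →ₗ[F] V' →ₗ[F] F) (T : V → V' → Prop) : Submodule F V where
  carrier := {x | ∀ v φ, T v φ → e x φ = 0}
  add_mem' := by
    intro a b ha hb v φ h
    rw [map_add, LinearMap.add_apply, ha v φ h, hb v φ h, add_zero]
  zero_mem' := by intro v φ _; simp
  smul_mem' := by
    intro c x hx v φ h
    rw [map_smul, LinearMap.smul_apply, hx v φ h, smul_zero]

/-- span of the centres -/
def W (T : V → V' → Prop) : Submodule F V := Submodule.span F {v | ∃ φ, T v φ}

def Inv (e : V →ₗ[F] V' →ₗ[F] F) (T : V → V' → Prop) (X : Submodule F V) : Prop :=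
  ∀ v φ, T v φ → v ∈ X ∨ ∀ x ∈ X, e x φ = 0

theorem mem_R {x : V} : x ∈ R e T ↔ ∀ v φ, T v φ → e x φ = 0 := Iff.rfl

variable (S : Sys e T)
include S

theorem t3 {v φ w ψ} (h1 : T v φ) (h2 : T w ψ) (h3 : e w φ ≠ 0) (h4 : e v ψ = 0) : T v ψ := by
  have h5 := S.conj h1 h2 (e w φ)⁻¹
  rw [h4, mul_zero, zero_smul, sub_zero, inv_mul_cancel₀ h3, one_smul] at h5
  have h6 := S.smul1 h2 (c := -1) (by norm_num)
  have h7 : (w + v) + (-1 : F) • w = v := by rw [neg_smul, one_smul]; abel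
  have h8 := S.add1 h5 h6 (by rw [h7]; exact S.ne1 h1)
  rwa [h7] at h8

theorem t1c {v φ w ψ} (h1 : T v φ) (h2 : T w ψ) (h3 : e w φ ≠ 0) (a : F) :
    T (w + a • v) (ψ - (a / e w φ * e v ψ) • φ) := by
  have h5 := S.conj h1 h2 (a / e w φ)
  rwa [div_mul_cancel₀ _ h3] at h5

theorem lemI {X : Submodule F V} (hX : Inv e T X) :
    (∀ v φ, T v φ → v ∈ X) ∨ X ≤ R e T := by
  by_cases h : ∃ v φ, T v φ ∧ v ∈ X
  · left
    refine S.hC (fun v _ => v ∈ X) ?_ h
    intro v φ w ψ h1 h2 h3 h4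
    by_contra h5
    have h6 := (hX w ψ h2).resolve_left h5
    have h7 : e v ψ = 0 := h6 v h3
    have h8 : e w φ ≠ 0 := by
      rcases h4 with h4 | h4
      · exact h4
      · exact absurd h7 h4
    have h9 := S.t3 h1 h2 h8 h7
    obtain ⟨x, hx, hx2⟩ := S.hN X hX v ψ h9 h3
    exact hx2 (h6 x hx)
  · right
    push Not at h
    intro x hx v φ hv
    exact ((hX v φ hv).resolve_left (h v φ hv)) x hx

theorem notR {v φ} (h : T v φ) : v ∉ R e T := by
  intro hv
  obtain ⟨x, hx, hx2⟩ := S.hN (R e T) (fun w ψ hw => Or.inr fun x hx => hx w ψ hw) v φ h hv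
  exact hx2 (hx v φ h)

theorem exW {v φ} (h : T v φ) : ∃ w ψ, T w ψ ∧ e w φ ≠ 0 := by
  by_contra hcon
  push Not at hcon
  obtain ⟨x, hx, hx2⟩ := S.hN (W T) (fun w ψ hw => Or.inl (Submodule.subset_span ⟨ψ, hw⟩)) v φ h
    (Submodule.subset_span ⟨φ, h⟩)
  apply hx2
  have : W T ≤ LinearMap.ker (e.flip φ) := by
    refine Submodule.span_le.2 ?_
    rintro w ⟨ψ, hw⟩
    simpa using hcon w ψ hw
  simpa using this hx

/-- the spanned subspace -/
def Xab (e : V →ₗ[F] V' →ₗ[F] F) (T : V → V' → Prop) (a b : V) : Submodule F V :=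
  Submodule.span F {x | ∃ χ, T x χ ∧ e a χ ≠ 0 ∧ e b χ ≠ 0}

omit S in
theorem mem_Xab {a b x : V} {χ : V'} (h : T x χ) (h1 : e a χ ≠ 0) (h2 : e b χ ≠ 0) : x ∈ Xab e T a b :=
  Submodule.subset_span ⟨χ, h, h1, h2⟩

theorem inv_X (a b : V) : Inv e T (Xab e T a b) := by
  intro v φ hv
  by_cases h : ∃ x χ, T x χ ∧ e a χ ≠ 0 ∧ e b χ ≠ 0 ∧ e x φ ≠ 0
  · left
    obtain ⟨x, χ, hx, ha, hb, hxφ⟩ := h
    by_cases hab : e a φ ≠ 0 ∧ e b φ ≠ 0
    · exact mem_Xab hv hab.1 hab.2
    -- find c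
    have key : ∃ c : F, c ≠ 0 ∧ e a χ - (c * e v χ) * e a φ ≠ 0 ∧ e b χ - (c * e v χ) * e b φ ≠ 0 := by
      have aux : ∀ s t m : F, s ≠ 0 → (s - (1 * m) * t ≠ 0 ∨ s - ((-1) * m) * t ≠ 0) := by
        intro s t m hs
        by_contra hcon
        push Not at hcon
        have : 2 * s = 0 := by linear_combination hcon.1 + hcon.2
        rcases mul_eq_zero.1 this with h | h
        · exact S.two h
        · exact hs h
      by_cases hb0 : e b φ = 0
      · rcases aux (e a χ) (e a φ) (e v χ) ha with h | h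
        · exact ⟨1, one_ne_zero, h, by rw [hb0, mul_zero, sub_zero]; exact hb⟩
        · exact ⟨-1, by norm_num, h, by rw [hb0, mul_zero, sub_zero]; exact hb⟩
      · have ha0 : e a φ = 0 := by
          by_contra h; exact hab ⟨h, hb0⟩
        rcases aux (e b χ) (e b φ) (e v χ) hb with h | h
        · exact ⟨1, one_ne_zero, by rw [ha0, mul_zero, sub_zero]; exact ha, h⟩
        · exact ⟨-1, by norm_num, by rw [ha0, mul_zero, sub_zero]; exact ha, h⟩
    obtain ⟨c, hc, h1, h2⟩ := key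
    have h3 := S.conj hv hx c
    have h4 : x + (c * e x φ) • v ∈ Xab e T a b := by
      refine mem_Xab h3 ?_ ?_
      · rw [map_sub, map_smul, smul_eq_mul]; exact h1
      · rw [map_sub, map_smul, smul_eq_mul]; exact h2
    have h5 : x ∈ Xab e T a b := mem_Xab hx ha hb
    have h6 : (c * e x φ) • v ∈ Xab e T a b := by
      have := Submodule.sub_mem _ h4 h5
      rwa [add_sub_cancel_left] at this
    exact (Submodule.smul_mem_iff _ (mul_ne_zero hc hxφ)).1 h6
  · right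
    push Not at h
    have : Xab e T a b ≤ LinearMap.ker (e.flip φ) := by
      refine Submodule.span_le.2 ?_
      rintro x ⟨χ, hx, ha, hb⟩
      simpa using h x χ hx ha hb
    intro x hx
    simpa using this hx

theorem X_all {a b x : V} {χ : V'} (h : T x χ) (h1 : e a χ ≠ 0) (h2 : e b χ ≠ 0) :
    ∀ v φ, T v φ → v ∈ Xab e T a b := by
  rcases S.lemI (S.inv_X a b) with h3 | h3
  · exact h3
  · exact absurd (h3 (mem_Xab h h1 h2)) (S.notR h)

theorem exX {a b x : V} {χ : V'} (h : T x χ) (h1 : e a χ ≠ 0) (h2 : e b χ ≠ 0) {μ : V'}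
    (hμ : ∃ w ψ, T w ψ ∧ e w μ ≠ 0) : ∃ x χ, T x χ ∧ e a χ ≠ 0 ∧ e b χ ≠ 0 ∧ e x μ ≠ 0 := by
  by_contra hcon
  push Not at hcon
  obtain ⟨w, ψ, hw, hw2⟩ := hμ
  apply hw2
  have : Xab e T a b ≤ LinearMap.ker (e.flip μ) := by
    refine Submodule.span_le.2 ?_
    rintro x ⟨χ, hx, ha, hb⟩
    simpa using hcon x χ hx ha hb
  simpa using this (S.X_all h h1 h2 w ψ hw)

theorem lemE {a b : V} (ha : a ∉ R e T) (hb : b ∉ R e T) : ∃ x χ, T x χ ∧ e a χ ≠ 0 ∧ e b χ ≠ 0 := by
  by_contra hcon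
  push Not at hcon
  rw [mem_R] at ha hb
  push Not at ha hb
  obtain ⟨x0, χ0, hx0, hx0a⟩ := ha
  obtain ⟨y, ψ, hy, hyb⟩ := hb
  obtain ⟨x, χ, hx, hxa, -, hxψ⟩ := S.exX hx0 hx0a hx0a (S.exW hy)
  have hχb : e b χ = 0 := hcon x χ hx hxa
  have hψa : e a ψ = 0 := by
    by_contra h
    exact hyb (hcon y ψ hy h)
  by_cases hχy : e y χ = 0
  · have h3 := S.t3 hy hx hxψ hχy
    have h4 : e a (ψ + χ) ≠ 0 := by rw [map_add, hψa, zero_add]; exact hxa
    have h5 := S.add2 hy h3 (by intro h; rw [h, map_zero] at h4; exact h4 rfl)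
    apply hyb
    have := hcon y (ψ + χ) h5 h4
    rwa [map_add, hχb, add_zero] at this
  · have h3 := S.conj hy hx 1
    have h4 : e a (χ - (1 * e y χ) • ψ) ≠ 0 := by
      rw [map_sub, map_smul, hψa, smul_zero, sub_zero]; exact hxa
    have h5 := hcon _ _ h3 h4
    rw [map_sub, map_smul, hχb, zero_sub, neg_eq_zero, smul_eq_mul, one_mul] at h5
    rcases mul_eq_zero.1 h5 with h | h
    · exact hχy h
    · exact hyb h

theorem lemX2 {a b : V} (ha : a ∉ R e T) (hb : b ∉ R e T) {μ : V'} (hμ : ∃ w ψ, T w ψ ∧ e w μ ≠ 0) :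
    ∃ x χ, T x χ ∧ e a χ ≠ 0 ∧ e b χ ≠ 0 ∧ e x μ ≠ 0 := by
  obtain ⟨x, χ, h, h1, h2⟩ := S.lemE ha hb
  exact S.exX h h1 h2 hμ

theorem add_of_ne {v w : V} {φ ψ : V'} (h1 : T v φ) (h2 : T w ψ) (h3 : e w φ ≠ 0) : ∃ η, T (v + w) η := by
  have := S.t1c h1 h2 h3 1
  rw [one_smul] at this
  rw [add_comm v w]
  exact ⟨_, this⟩

theorem lemD {v w u : V} {φ ψ χ : V'} (h1 : T v φ) (h2 : T w ψ) (h3 : T u χ) (h4 : e (v + w) χ ≠ 0)
    (h5 : e w χ ≠ 0) (h6 : e u φ ≠ 0) : ∃ η, T (v + w) η := by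
  by_cases hwφ : e w φ = 0
  swap
  · exact S.add_of_ne h1 h2 hwφ
  by_cases hvχ : e v χ = 0
  · exact S.add_of_ne (S.t3 h1 h3 h6 hvχ) h2 h5
  · -- x = v + u, y = w - u
    have hx := S.t1c h3 h1 hvχ 1
    have hy := S.t1c h3 h2 h5 (-1)
    have := S.add_of_ne hx hy (by
      have hu := S.zero h3
      simp only [map_sub, map_smul, map_add, LinearMap.add_apply, LinearMap.smul_apply, smul_eq_mul, hwφ, hu,
        LinearMap.neg_apply, one_smul]
      have h4' : e v χ + e w χ ≠ 0 := by rwa [map_add, LinearMap.add_apply] at h4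
      intro hh
      apply h4'
      have hne := mul_ne_zero h6 (inv_ne_zero hvχ)
      have : (e u φ * (e v χ)⁻¹) * (e v χ + e w χ) = 0 := by
        field_simp at hh ⊢
        linear_combination (-1 : F) * hh
      exact (mul_eq_zero.1 this).resolve_left hne)
    have e1 : v + (1 : F) • u + (w + (-1 : F) • u) = v + w := by
      rw [one_smul, neg_smul, one_smul]; abel
    rwa [e1] at this

theorem lemU {v r : V} {φ φ' : V'} (h1 : T v φ) (h2 : T (v + r) φ') (hr : r ∈ R e T) : r = 0 := by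
  by_contra hr0
  have hvR : v ∉ R e T := S.notR h1
  obtain ⟨u, χ, hu, hvχ, -, huφ⟩ := S.lemX2 hvR hvR (S.exW h1)
  have hrχ : e r χ = 0 := hr _ _ hu
  have hrφ : e r φ = 0 := hr _ _ h1
  have hrφ' : e r φ' = 0 := hr _ _ h2
  have hvφ : e v φ = 0 := S.zero h1
  have hvφ' : e v φ' = 0 := by
    have := S.zero h2
    rwa [map_add, LinearMap.add_apply, hrφ', add_zero] at this
  have huχ : e u χ = 0 := S.zero hu
  -- contradiction when same axis
  have same : ∀ ξ, T v ξ → T (v + r) ξ → False := by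
    intro ξ g1 g2
    have g3 := S.smul1 g1 (c := -1) (by norm_num)
    have g4 : (v + r) + (-1 : F) • v = r := by rw [neg_smul, one_smul]; abel
    have g5 := S.add1 g2 g3 (by rw [g4]; exact hr0)
    rw [g4] at g5
    exact S.notR g5 hr
  by_cases huφ' : e u φ' = 0
  · have g1 : T u φ' := by
      refine S.t3 hu h2 ?_ huφ'
      rw [map_add, LinearMap.add_apply, hrχ, add_zero]; exact hvχ
    have g2 : T v φ' := S.t3 h1 g1 huφ hvφ'
    exact same φ' g2 h2
  · -- scale
    set c : F := e u φ / e u φ' with hc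
    have hc0 : c ≠ 0 := div_ne_zero huφ huφ'
    set φ2 : V' := c • φ' with hφ2
    have h2' : T (v + r) φ2 := S.smul2 h2 hc0
    have huφ2 : e u φ2 = e u φ := by
      rw [hφ2, map_smul, smul_eq_mul, hc, div_mul_cancel₀ _ huφ']
    have hvφ2 : e v φ2 = 0 := by rw [hφ2, map_smul, hvφ', smul_zero]
    have hrφ2 : e r φ2 = 0 := by rw [hφ2, map_smul, hrφ', smul_zero]
    set f := e u φ with hf
    set s := e v χ with hs
    by_cases hδ : φ2 - φ = 0
    · rw [sub_eq_zero] at hδ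
      rw [hδ] at h2'
      exact same φ h1 h2'
    · -- step
      have step : ∀ x ξ, T x ξ → e x φ = f → e x φ2 = f → e v ξ = s → e r ξ = 0 →
          T (x + f • r) (ξ + (-s) • (φ2 - φ)) := by
        intro x ξ g1 g2 g3 g4 g5
        have g6 := S.conj h2' g1 1
        have g7 := S.conj h1 g6 (-1)
        convert g7 using 1
        · simp only [g2, g3, map_add, map_smul, LinearMap.add_apply, LinearMap.smul_apply, hvφ, hrφ, smul_eq_mul]
          module
        · simp only [g4, g5, map_sub, map_add, map_smul, LinearMap.add_apply, LinearMap.smul_apply, hvφ2, hrφ2,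
            smul_eq_mul, LinearMap.sub_apply]
          module
      have k1 := step u χ hu rfl huφ2 rfl hrχ
      have hfr : ∀ ξ, e r ξ = 0 → e (f • r) ξ = 0 := by
        intro ξ hξ
        rw [map_smul, LinearMap.smul_apply, hξ, smul_zero]
      have k2 := step _ _ k1 (by
          rw [map_add, LinearMap.add_apply, hfr φ hrφ, add_zero])
        (by rw [map_add, LinearMap.add_apply, hfr φ2 hrφ2, add_zero, huφ2])
        (by rw [map_add, map_smul, map_sub, hvφ, hvφ2, sub_zero, smul_zero, add_zero])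
        (by rw [map_add, map_smul, map_sub, hrφ, hrφ2, sub_zero, smul_zero, add_zero, hrχ])
      have hs0 : s ≠ 0 := hvχ
      have hf0 : f ≠ 0 := huφ
      have k3 := S.quad hu k1 k2 (hfr χ hrχ)
        (by rw [map_smul, map_sub, huφ2, sub_self, smul_zero])
        (hfr _ (by rw [map_smul, map_sub, hrφ, hrφ2, sub_zero, smul_zero]))
        (smul_ne_zero hf0 hr0) (smul_ne_zero (neg_ne_zero.2 hs0) hδ)
      exact S.notR k3 (Submodule.smul_mem _ _ hr)

theorem add_center {v w : V} (hv : ∃ φ, T v φ) (hw : ∃ ψ, T w ψ) (hvw : v + w ≠ 0) : ∃ η, T (v + w) η := by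
  obtain ⟨φ, h1⟩ := hv
  obtain ⟨ψ, h2⟩ := hw
  have hz : v + w ∉ R e T := by
    intro hz
    have h3 := S.smul1 h1 (c := -1) (by norm_num)
    have h4 : w = (-1 : F) • v + (v + w) := by rw [neg_smul, one_smul]; abel
    rw [h4] at h2
    exact hvw (S.lemU h3 h2 hz)
  obtain ⟨u, χ, hu, g1, g2, g3⟩ := S.lemX2 hz (S.notR h2) (S.exW h1)
  exact S.lemD h1 h2 hu g1 g2 g3

theorem mem_W {v : V} : v ∈ W (F := F) T ↔ v = 0 ∨ ∃ φ, T v φ := by
  constructor
  · intro hv
    induction hv using Submodule.span_induction with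
    | mem x hx => exact Or.inr hx
    | zero => exact Or.inl rfl
    | add x y _ _ hx hy =>
      rcases hx with rfl | hx
      · rw [zero_add]; exact hy
      rcases hy with rfl | hy
      · rw [add_zero]; exact Or.inr hx
      by_cases h : x + y = 0
      · exact Or.inl h
      · exact Or.inr (S.add_center hx hy h)
    | smul c x _ hx =>
      rcases hx with rfl | ⟨φ, hx⟩
      · left; rw [smul_zero]
      · by_cases hc : c = 0
        · left; rw [hc, zero_smul]
        · right; exact ⟨φ, S.smul1 hx hc⟩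
  · rintro (rfl | h)
    · exact Submodule.zero_mem _
    · exact Submodule.subset_span h

theorem disj : Disjoint (W (F := F) T) (R e T) := by
  rw [Submodule.disjoint_def]
  intro x hx hR
  rcases S.mem_W.1 hx with h | ⟨φ, h⟩
  · exact h
  · exact absurd hR (S.notR h)

end Sys

end Cfsg.Agent.H13.McL
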