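import Mathlib
import Cfsg.Agent.H13_McL

/-! McLaughlin transvection groups: the complement, and the full case. -/

namespace Cfsg.Agent.H13.McL

open Module

variable {F V : Type*} [Field F] [AddCommGroup V] [Module F V] [FiniteDimensional F V]

namespace Sys

variable {T : V → Dual F V → Prop} (S : Sys (Dual.eval F V) T)
include S

theorem isCompl : IsCompl (W (F := F) T) (R (Dual.eval F V) T) := by
  set Y : Submodule F (Dual F V) := W (F := F) (fun (φ : Dual F V) (v : V) => T v φ) with hY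
  have hRY : R (Dual.eval F V) T = Y.dualCoannihilator := by
    ext x
    rw [Submodule.mem_dualCoannihilator]
    constructor
    · intro hx φ hφ
      rcases S.flip.mem_W.1 hφ with rfl | ⟨v, hv⟩
      · rfl
      · exact hx v φ hv
    · intro hx v φ hv
      exact hx φ (Submodule.subset_span ⟨v, hv⟩)
  have hd2 : Disjoint Y (R (Dual.eval F V).flip (fun φ v => T v φ)) := S.flip.disj
  have h1 : finrank F Y ≤ finrank F (W (F := F) T) := by
    rw [← Subspace.dual_finrank_eq (K := F) (V := W (F := F) T)]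
    refine LinearMap.finrank_le_finrank_of_injective
      (f := ((W (F := F) T).dualRestrict.domRestrict Y)) ?_
    rw [injective_iff_map_eq_zero]
    rintro ⟨φ, hφ⟩ h
    apply Subtype.ext
    have h2 : φ ∈ R (Dual.eval F V).flip (fun (φ : Dual F V) (v : V) => T v φ) := by
      intro ψ w hw
      have h3 := LinearMap.congr_fun h ⟨w, Submodule.subset_span ⟨ψ, hw⟩⟩
      exact h3
    exact Submodule.disjoint_def.1 hd2 φ hφ h2
  have h2 : finrank F (W (F := F) T) ≤ finrank F Y := by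
    rw [← Subspace.dual_finrank_eq (K := F) (V := Y)]
    refine LinearMap.finrank_le_finrank_of_injective
      (f := ((Y.dualRestrict.comp (Dual.eval F V)).domRestrict (W (F := F) T))) ?_
    rw [injective_iff_map_eq_zero]
    rintro ⟨v, hv⟩ h
    apply Subtype.ext
    have h2 : v ∈ R (Dual.eval F V) T := by
      intro w φ hw
      have h3 := LinearMap.congr_fun h ⟨φ, Submodule.subset_span ⟨w, hw⟩⟩
      exact h3
    exact Submodule.disjoint_def.1 S.disj v hv h2
  refine ⟨S.disj, ?_⟩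
  rw [codisjoint_iff]
  refine Submodule.eq_top_of_disjoint _ _ ?_ S.disj
  rw [hRY]
  have h3 := Subspace.finrank_add_finrank_dualCoannihilator_eq Y
  omega

theorem axis {φ : Dual F V} (hφ : φ ≠ 0) (h : ∀ x ∈ R (Dual.eval F V) T, φ x = 0) : ∃ v, T v φ := by
  set Y : Submodule F (Dual F V) := W (F := F) (fun (φ : Dual F V) (v : V) => T v φ) with hY
  have hRY : Y.dualCoannihilator ≤ R (Dual.eval F V) T := by
    intro x hx v φ hv
    exact (Submodule.mem_dualCoannihilator _).1 hx φ (Submodule.subset_span ⟨v, hv⟩)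
  have h1 : φ ∈ Y.dualCoannihilator.dualAnnihilator := by
    rw [Submodule.mem_dualAnnihilator]
    intro x hx
    exact h x (hRY hx)
  rw [Subspace.dualCoannihilator_dualAnnihilator_eq] at h1
  rcases S.flip.mem_W.1 h1 with h2 | h2
  · exact absurd h2 hφ
  · exact h2

end Sys

/-- the full situation -/
structure Full (T : V → Dual F V → Prop) : Prop where
  zero : ∀ {v φ}, T v φ → φ v = 0
  ne1 : ∀ {v φ}, T v φ → v ≠ 0
  ne2 : ∀ {v φ}, T v φ → φ ≠ 0
  smul2 : ∀ {v φ}, T v φ → ∀ {c : F}, c ≠ 0 → T v (c • φ)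
  conj : ∀ {v φ w ψ}, T v φ → T w ψ → φ w ≠ 0 → ∀ a : F, T (w + a • v) (ψ - (a / φ w * ψ v) • φ)
  add2 : ∀ {v φ ψ}, T v φ → T v ψ → φ + ψ ≠ 0 → T v (φ + ψ)
  t3 : ∀ {v φ w ψ}, T v φ → T w ψ → φ w ≠ 0 → ψ v = 0 → T v ψ
  full : ∀ {v}, v ≠ 0 → ∃ φ, T v φ
  x2 : ∀ {a b} {μ : Dual F V}, a ≠ 0 → b ≠ 0 → μ ≠ 0 → ∃ x χ, T x χ ∧ χ a ≠ 0 ∧ χ b ≠ 0 ∧ μ x ≠ 0
  two : (2 : F) ≠ 0

namespace Full

variable {T : V → Dual F V → Prop} (S : Full T)

/-- axes at a centre -/
def A (S : Full T) (v : V) : Submodule F (Dual F V) where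
  carrier := {φ | φ = 0 ∨ T v φ}
  add_mem' := by
    rintro a b (rfl | ha) (rfl | hb)
    · left; simp
    · right; rwa [zero_add]
    · right; rwa [add_zero]
    · by_cases h : a + b = 0
      · exact Or.inl h
      · exact Or.inr (S.add2 ha hb h)
  zero_mem' := Or.inl rfl
  smul_mem' := by
    rintro c φ (rfl | h)
    · left; rw [smul_zero]
    · by_cases hc : c = 0
      · left; rw [hc, zero_smul]
      · right; exact S.smul2 h hc

theorem mem_A {v : V} {φ : Dual F V} : φ ∈ S.A v ↔ φ = 0 ∨ T v φ := Iff.rfl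

theorem T_of_mem {v : V} {φ : Dual F V} (h : φ ∈ S.A v) (h2 : φ ≠ 0) : T v φ := h.resolve_left h2

theorem le_move {u v : V} {χ : Dual F V} (h : T u χ) (hv : χ v ≠ 0) (a : F) :
    finrank F (S.A v) ≤ finrank F (S.A (v + a • u)) := by
  have huχ := S.zero h
  let L : Dual F V →ₗ[F] Dual F V := LinearMap.id - ((a / χ v) • (Dual.eval F V u)).smulRight χ
  have hL : ∀ α, L α = α - (a / χ v * α u) • χ := by
    intro α
    simp [L]
  have hinj : Function.Injective L := by
    rw [injective_iff_map_eq_zero]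
    intro α hα
    rw [hL, sub_eq_zero] at hα
    have h2 : α u = 0 := by
      rw [hα, LinearMap.smul_apply, huχ, smul_zero]
    rw [h2, mul_zero, zero_smul] at hα
    exact hα
  rw [(Submodule.equivMapOfInjective L hinj (S.A v)).finrank_eq]
  refine Submodule.finrank_mono ?_
  rintro _ ⟨α, hα, rfl⟩
  rcases hα with rfl | hα
  · rw [map_zero]; exact Submodule.zero_mem _
  · right
    rw [hL]
    exact S.conj h hα hv a

theorem d_le {u v : V} {φ χ : Dual F V} (h1 : T v φ) (h2 : T u χ) (h3 : φ u ≠ 0) (h4 : χ v ≠ 0) :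
    finrank F (S.A v) ≤ finrank F (S.A u) := by
  refine (S.le_move h2 h4 1).trans ?_
  have h5 : φ (v + (1 : F) • u) ≠ 0 := by
    rw [map_add, S.zero h1, zero_add, one_smul]; exact h3
  have h6 := S.le_move h1 h5 (-1)
  have h7 : v + (1 : F) • u + (-1 : F) • v = u := by
    rw [one_smul, neg_smul, one_smul]; abel
  rwa [h7] at h6

theorem d_const {v w : V} (hv : v ≠ 0) (hw : w ≠ 0) : finrank F (S.A v) ≤ finrank F (S.A w) := by
  obtain ⟨ψ, hψ⟩ := S.full hw
  obtain ⟨u, χ, hu, h1, h2, h3⟩ := S.x2 hv hw (S.ne2 hψ)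
  have hd1 : finrank F (S.A u) ≤ finrank F (S.A w) := S.d_le hu hψ h2 h3
  refine le_trans ?_ hd1
  by_cases h : ∃ φ, T v φ ∧ φ u ≠ 0
  · obtain ⟨φ, h4, h5⟩ := h
    exact S.d_le h4 hu h5 h1
  · push Not at h
    refine Submodule.finrank_mono ?_
    rintro φ (rfl | hφ)
    · exact Submodule.zero_mem _
    · exact Or.inr (S.t3 hu hφ h1 (h φ hφ))

theorem A_eq {v w : V} (hv : v ≠ 0) (hw : w ≠ 0) (h : S.A v ≤ S.A w) : S.A v = S.A w :=
  Submodule.eq_of_le_of_finrank_eq h (le_antisymm (S.d_const hv hw) (S.d_const hw hv))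

include S in
theorem symm {v w : V} {φ : Dual F V} (h1 : T v φ) (h2 : φ w ≠ 0) : ∃ ψ, T w ψ ∧ ψ v ≠ 0 := by
  by_contra hcon
  push Not at hcon
  have hw : w ≠ 0 := by rintro rfl; exact h2 (map_zero _)
  have hle : S.A w ≤ S.A v := by
    rintro ψ (rfl | hψ)
    · exact Submodule.zero_mem _
    · exact Or.inr (S.t3 h1 hψ h2 (hcon ψ hψ))
  have heq := S.A_eq hw (S.ne1 h1) hle
  have : φ ∈ S.A w := by rw [heq]; exact Or.inr h1
  exact h2 (S.zero (S.T_of_mem this (S.ne2 h1)))

include S in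
theorem star {x w : V} {α β : Dual F V} (h1 : T x α) (h2 : α w ≠ 0) (h3 : T x β) (h4 : β w = 0) :
    T w β := by
  obtain ⟨ψ, h5, h6⟩ := S.symm h1 h2
  exact S.t3 h5 h3 h6 h4

omit [FiniteDimensional F V] in
theorem mem_span_of_ker {η α : Dual F V} (h : ∀ x, η x = 0 → α x = 0) : α ∈ Submodule.span F {η} := by
  by_cases hη : η = 0
  · have : α = 0 := by
      ext x
      exact h x (by rw [hη]; rfl)
    rw [this]; exact Submodule.zero_mem _
  · obtain ⟨z, hz⟩ : ∃ z, η z ≠ 0 := by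
      by_contra hcon
      push Not at hcon
      exact hη (LinearMap.ext hcon)
    rw [Submodule.mem_span_singleton]
    refine ⟨α z / η z, ?_⟩
    ext x
    have h2 := h (x - (η x / η z) • z) (by
      rw [map_sub, map_smul, smul_eq_mul, div_mul_cancel₀ _ hz, sub_self])
    rw [map_sub, map_smul, smul_eq_mul, sub_eq_zero] at h2
    rw [LinearMap.smul_apply, smul_eq_mul, h2]
    ring

theorem exists_of_two {v : V} (h : 2 ≤ finrank F (S.A v)) (η : Dual F V) :
    ∃ α, T v α ∧ ∃ y, η y = 0 ∧ α y ≠ 0 := by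
  by_contra hcon
  push Not at hcon
  have hle : S.A v ≤ Submodule.span F {η} := by
    rintro α (rfl | hα)
    · exact Submodule.zero_mem _
    · exact mem_span_of_ker (hcon α hα)
  have h1 := Submodule.finrank_mono hle
  have h2 := finrank_span_le_card (R := F) ({η} : Set (Dual F V))
  simp at h2
  omega

theorem claim1 (hd : ∀ v, v ≠ 0 → 2 ≤ finrank F (S.A v)) {v w : V} (hw : w ≠ 0)
    (h : ∀ α, T v α → α w = 0) {η : Dual F V} (hη : T v η) : T w η := by
  have hv := S.ne1 hη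
  obtain ⟨α, hα, y1, hy1, hαy1⟩ := S.exists_of_two (hd v hv) η
  obtain ⟨β, hβ, y2, hy2, hβy2⟩ := S.exists_of_two (hd w hw) η
  obtain ⟨y, h1, h2, h3⟩ : ∃ y, η y = 0 ∧ α y ≠ 0 ∧ β y ≠ 0 := by
    by_cases c1 : β y1 = 0
    · by_cases c2 : α y2 = 0
      · refine ⟨y1 + y2, ?_, ?_, ?_⟩
        · rw [map_add, hy1, hy2, add_zero]
        · rw [map_add, c2, add_zero]; exact hαy1
        · rw [map_add, c1, zero_add]; exact hβy2
      · exact ⟨y2, hy2, c2, hβy2⟩
    · exact ⟨y1, hy1, hαy1, c1⟩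
  have h4 : T y η := S.star hα h2 hη h1
  obtain ⟨θ, h5, h6⟩ := S.symm hβ h3
  exact S.star h5 h6 h4 (h η hη)

theorem claim2 (hd : ∀ v, v ≠ 0 → 2 ≤ finrank F (S.A v)) {v w : V} (hv : v ≠ 0)
    (h : ∀ α, T v α → α w = 0) : w ∈ Submodule.span F {v} := by
  by_contra hcon
  obtain ⟨α, hα⟩ := S.full hv
  obtain ⟨y, hy⟩ : ∃ y, α y ≠ 0 := by
    by_contra h'
    push Not at h'
    exact S.ne2 hα (LinearMap.ext h')
  obtain ⟨η, hη, hηv⟩ := S.symm hα hy
  set w' := w - (η w / η v) • v with hw'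
  have h1 : η w' = 0 := by
    rw [hw', map_sub, map_smul, smul_eq_mul, div_mul_cancel₀ _ hηv, sub_self]
  have h2 : w' ≠ 0 := by
    intro h'
    apply hcon
    rw [hw', sub_eq_zero] at h'
    rw [h']
    exact Submodule.smul_mem _ _ (Submodule.mem_span_singleton_self v)
  have h3 : ∀ β, T v β → β w' = 0 := by
    intro β hβ
    rw [hw', map_sub, map_smul, h β hβ, S.zero hβ, smul_zero, sub_zero]
  have hle : S.A v ≤ S.A w' := by
    rintro β (rfl | hβ)
    · exact Submodule.zero_mem _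
    · exact Or.inr (S.claim1 hd h2 h3 hβ)
  have heq := S.A_eq hv h2 hle
  have h4 : T w' α := S.claim1 hd h2 h3 hα
  obtain ⟨ξ, hξ, hξ2⟩ := S.symm h4 hy
  have h5 : T w' η := S.star hξ hξ2 hη h1
  have h6 : η ∈ S.A v := by rw [heq]; exact Or.inr h5
  exact hηv (S.zero (S.T_of_mem h6 (S.ne2 h5)))

theorem all_of_two (hd : ∀ v, v ≠ 0 → 2 ≤ finrank F (S.A v)) {v : V} {φ : Dual F V} (hv : v ≠ 0)
    (hφ : φ ≠ 0) (h : φ v = 0) : T v φ := by
  have h1 : φ ∈ (S.A v).dualCoannihilator.dualAnnihilator := by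
    rw [Submodule.mem_dualAnnihilator]
    intro w hw
    rw [Submodule.mem_dualCoannihilator] at hw
    have h2 := S.claim2 hd hv (w := w) (fun α hα => hw α (Or.inr hα))
    rw [Submodule.mem_span_singleton] at h2
    obtain ⟨c, rfl⟩ := h2
    rw [map_smul, h, smul_zero]
  rw [Subspace.dualCoannihilator_dualAnnihilator_eq] at h1
  exact S.T_of_mem h1 hφ

theorem one (hd : ∀ v, v ≠ 0 → finrank F (S.A v) ≤ 1) {v : V} {φ ψ : Dual F V} (h1 : T v φ)
    (h2 : T v ψ) : ∃ c : F, c ≠ 0 ∧ ψ = c • φ := by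
  have h3 := hd v (S.ne1 h1)
  have hsp : Submodule.span F {φ} = S.A v := by
    refine Submodule.eq_of_le_of_finrank_le ?_ ?_
    · rw [Submodule.span_singleton_le_iff_mem]; exact Or.inr h1
    · rw [finrank_span_singleton (S.ne2 h1)]; exact h3
  have h4 : ψ ∈ Submodule.span F {φ} := by rw [hsp]; exact Or.inr h2
  rw [Submodule.mem_span_singleton] at h4
  obtain ⟨c, hc⟩ := h4
  refine ⟨c, ?_, hc.symm⟩
  rintro rfl
  rw [zero_smul] at hc
  exact S.ne2 h2 hc.symm

theorem symm' (hd : ∀ v, v ≠ 0 → finrank F (S.A v) ≤ 1) {v w : V} {φ ψ : Dual F V} (h1 : T v φ)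
    (h2 : T w ψ) (h3 : φ w = 0) : ψ v = 0 := by
  by_contra h
  obtain ⟨φ', h4, h5⟩ := S.symm h2 h
  obtain ⟨c, -, rfl⟩ := S.one hd h1 h4
  rw [LinearMap.smul_apply, h3, smul_zero] at h5
  exact h5 rfl

theorem alt_of_one (hd : ∀ v, v ≠ 0 → finrank F (S.A v) ≤ 1) {u : V} (hu : u ≠ 0) :
    ∃ B : LinearMap.BilinForm F V, B.IsAlt ∧ B.Nondegenerate ∧ (∀ v, v ≠ 0 → T v (B v)) ∧
      ∀ v φ, T v φ → ∃ c : F, φ = c • B v := by
  obtain ⟨μ, hμ⟩ := S.full hu
  have hμu := S.zero hμ
  obtain ⟨v0, hv0⟩ : ∃ y, μ y ≠ 0 := by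
    by_contra h'
    push Not at h'
    exact S.ne2 hμ (LinearMap.ext h')
  -- normalised functionals
  have hex : ∀ v, ∃ ψ : Dual F V, μ v ≠ 0 → T v ψ ∧ ψ u = - μ v := by
    intro v
    by_cases hv : μ v = 0
    · exact ⟨0, fun h => absurd hv h⟩
    · obtain ⟨ψ, h1, h2⟩ := S.symm hμ hv
      refine ⟨(- μ v / ψ u) • ψ, fun _ => ⟨S.smul2 h1 (div_ne_zero (neg_ne_zero.2 hv) h2), ?_⟩⟩
      rw [LinearMap.smul_apply, smul_eq_mul, div_mul_cancel₀ _ h2]
  choose Φ hΦ using hex
  have anti : ∀ v w, μ v ≠ 0 → μ w ≠ 0 → Φ w v = - Φ v w := by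
    intro v w hv hw
    obtain ⟨h1, h2⟩ := hΦ v hv
    obtain ⟨h3, h4⟩ := hΦ w hw
    by_cases h5 : Φ v w = 0
    · rw [h5, neg_zero]
      exact S.symm' hd h1 h3 h5
    · have hΦvu : Φ v u ≠ 0 := by rw [h2]; exact neg_ne_zero.2 hv
      set a : F := - μ w / Φ v w with ha
      have ha0 : a ≠ 0 := div_ne_zero (neg_ne_zero.2 hw) h5
      have h6 := S.conj h1 hμ hΦvu a
      have h7 : μ - (a / Φ v u * μ v) • Φ v = μ + a • Φ v := by
        rw [h2]
        have : a / - μ v * μ v = - a := by field_simp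
        rw [this]
        module
      rw [h7] at h6
      have h8 : (μ + a • Φ v) w = 0 := by
        rw [LinearMap.add_apply, LinearMap.smul_apply, smul_eq_mul, ha, div_mul_cancel₀ _ h5]
        ring
      have h9 := S.symm' hd h6 h3 h8
      rw [map_add, map_smul, smul_eq_mul, h4] at h9
      have h10 : a * Φ v w = - μ w := by rw [ha, div_mul_cancel₀ _ h5]
      have h11 : a * (Φ w v + Φ v w) = 0 := by linear_combination h9 + h10
      have h12 := (mul_eq_zero.1 h11).resolve_left ha0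
      linear_combination h12
  -- extensionality on N
  have ext2 : ∀ f g : Dual F V, (∀ v, μ v ≠ 0 → f v = g v) → f = g := by
    intro f g h
    ext x
    by_cases hx : μ x = 0
    · have h1 : μ (x + v0) ≠ 0 := by rw [map_add, hx, zero_add]; exact hv0
      have h2 := h _ h1
      rw [map_add, map_add, h v0 hv0] at h2
      exact add_right_cancel h2
    · exact h x hx
  classical
  let Ψ : V → Dual F V := fun y => if μ y = 0 then Φ (y + v0) - Φ v0 else Φ y
  have hΨ : ∀ y v, μ v ≠ 0 → Ψ y v = - Φ v y := by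
    intro y v hv
    by_cases hy : μ y = 0
    · have h1 : μ (y + v0) ≠ 0 := by rw [map_add, hy, zero_add]; exact hv0
      simp only [Ψ, hy, if_true]
      rw [LinearMap.sub_apply, anti v (y + v0) hv h1, anti v v0 hv hv0, map_add]
      ring
    · simp only [Ψ, hy, if_false]
      exact anti v y hv hy
  let B : LinearMap.BilinForm F V :=
    { toFun := Ψ
      map_add' := by
        intro x y
        apply ext2
        intro v hv
        rw [LinearMap.add_apply, hΨ _ v hv, hΨ _ v hv, hΨ _ v hv, map_add]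
        ring
      map_smul' := by
        intro c x
        apply ext2
        intro v hv
        rw [RingHom.id_apply, LinearMap.smul_apply, hΨ _ v hv, hΨ _ v hv, map_smul, smul_eq_mul]
        ring }
  have hB : ∀ x, B x = Ψ x := fun _ => rfl
  have hBN : ∀ v, μ v ≠ 0 → B v = Φ v := by
    intro v hv
    rw [hB]
    simp only [Ψ, hv, if_false]
  have hanti : ∀ x y, B x y = - B y x := by
    intro x
    have : B x = - (B.flip x) := by
      apply ext2
      intro v hv
      change B x v = - (B v x)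
      rw [hBN v hv, hB, hΨ x v hv]
    intro y
    rw [this]; rfl
  have halt : B.IsAlt := by
    intro x
    have h1 := hanti x x
    have h2 : 2 * B x x = 0 := by linear_combination h1
    exact (mul_eq_zero.1 h2).resolve_left S.two
  have hw : ∀ x, x ≠ 0 → ∃ w, μ w ≠ 0 ∧ T w (Φ w) ∧ Φ w x ≠ 0 := by
    intro x hx
    obtain ⟨w, χ, h1, h2, h3, -⟩ := S.x2 hx hu (S.ne2 hμ)
    have h4 : μ w ≠ 0 := fun h => h3 (S.symm' hd hμ h1 h)
    obtain ⟨h5, h6⟩ := hΦ w h4
    obtain ⟨c, hc, rfl⟩ := S.one hd h5 h1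
    refine ⟨w, h4, h5, ?_⟩
    intro h7
    rw [LinearMap.smul_apply, h7, smul_zero] at h2
    exact h2 rfl
  have hsep : ∀ x, (∀ y, B x y = 0) → x = 0 := by
    intro x hx
    by_contra hx0
    obtain ⟨w, h1, h2, h3⟩ := hw x hx0
    have h4 := hx w
    rw [hanti, neg_eq_zero, hBN w h1] at h4
    exact h3 h4
  have hmain : ∀ x φ, T x φ → ∃ c : F, φ = c • B x := by
    intro x φ h1
    by_cases hx : μ x = 0
    · obtain ⟨w, h2, h3, h4⟩ := hw x (S.ne1 h1)
      have h5 := S.conj h3 h1 h4 1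
      have h6 : μ (x + (1 : F) • w) ≠ 0 := by
        rw [map_add, hx, zero_add, one_smul]; exact h2
      obtain ⟨m, hm, h7⟩ := S.one hd (hΦ _ h6).1 h5
      rw [← hBN _ h6, ← hBN w h2, map_add, one_smul] at h7
      refine ⟨m, ?_⟩
      have h8 : φ = m • B x + (m + 1 / B w x * φ w) • B w := by
        have h9 : φ = m • (B x + B w) + (1 / B w x * φ w) • B w := by
          rw [← h7]; abel
        conv_lhs => rw [h9]
        module
      have h10 : φ x = m * B x x + (m + 1 / B w x * φ w) * B w x := by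
        conv_lhs => rw [h8]
        rfl
      rw [S.zero h1, halt.self_eq_zero, mul_zero, zero_add] at h10
      have h11 : B w x ≠ 0 := by rw [hBN w h2]; exact h4
      have h12 := (mul_eq_zero.1 h10.symm).resolve_right h11
      rw [h12, zero_smul, add_zero] at h8
      exact h8
    · obtain ⟨c, -, h2⟩ := S.one hd (hΦ x hx).1 h1
      exact ⟨c, by rw [hBN x hx]; exact h2⟩
  refine ⟨B, halt, ⟨fun x hx => hsep x hx, fun y hy => hsep y (fun x => by rw [hanti, hy x, neg_zero])⟩,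
    ?_, hmain⟩
  intro v hv
  obtain ⟨φ, hφ⟩ := S.full hv
  obtain ⟨c, hc⟩ := hmain v φ hφ
  have hc0 : c ≠ 0 := by
    rintro rfl
    rw [zero_smul] at hc
    exact S.ne2 hφ hc
  have := S.smul2 hφ (inv_ne_zero hc0)
  rwa [hc, smul_smul, inv_mul_cancel₀ hc0, one_smul] at this

include S in
/-- the dichotomy -/
theorem dich (hu : ∃ u : V, u ≠ 0) : (∀ v φ, v ≠ 0 → φ ≠ 0 → φ v = 0 → T v φ) ∨
    ∃ B : LinearMap.BilinForm F V, B.IsAlt ∧ B.Nondegenerate ∧ (∀ v, v ≠ 0 → T v (B v)) ∧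
      ∀ v φ, T v φ → ∃ c : F, φ = c • B v := by
  obtain ⟨u, hu⟩ := hu
  by_cases h : 2 ≤ finrank F (S.A u)
  · left
    intro v φ hv hφ h0
    exact S.all_of_two (fun w hw => h.trans (S.d_const hu hw)) hv hφ h0
  · right
    exact S.alt_of_one (fun w hw => (S.d_const hw hu).trans (by omega)) hu

end Full

end Cfsg.Agent.H13.McL
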