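import Mathlib
import Cfsg.Agent.H13_McL2

/-! McLaughlin transvection groups: the group level. -/

namespace Cfsg.Agent.H13.McL

open Module

variable {p : ℕ} [Fact p.Prime] {V : Type*} [AddCommGroup V] [Module (ZMod p) V]

def Un (K : Subgroup (V ≃ₗ[ZMod p] V)) (N : V →ₗ[ZMod p] V) : Prop := ∃ g ∈ K, ∀ x, g x = x + N x

variable {K : Subgroup (V ≃ₗ[ZMod p] V)} {N M : V →ₗ[ZMod p] V}

theorem Un.add (h1 : Un K N) (h2 : Un K M) (h : ∀ x, N (M x) = 0) : Un K (N + M) := by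
  obtain ⟨g, hg, hg2⟩ := h1
  obtain ⟨k, hk, hk2⟩ := h2
  refine ⟨g * k, mul_mem hg hk, fun x => ?_⟩
  rw [LinearEquiv.mul_apply, hk2, hg2, map_add, h, LinearMap.add_apply]
  abel

theorem Un.zero : Un K 0 := ⟨1, one_mem _, fun x => by simp⟩

theorem Un.neg (h1 : Un K N) (h : ∀ x, N (N x) = 0) : Un K (-N) := by
  obtain ⟨g, hg, hg2⟩ := h1
  refine ⟨g⁻¹, inv_mem hg, fun x => ?_⟩
  have h2 : g (x + (-N) x) = x := by
    rw [hg2, LinearMap.neg_apply, map_add, map_neg, h]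
    abel
  have h3 : g (g⁻¹ x) = x := by
    rw [← LinearEquiv.mul_apply, mul_inv_cancel]; rfl
  exact g.injective (h3.trans h2.symm)

theorem Un.nsmul (h1 : Un K N) (h : ∀ x, N (N x) = 0) (n : ℕ) : Un K ((n : ZMod p) • N) := by
  induction n with
  | zero => simpa using Un.zero
  | succ n ih =>
    have h2 := ih.add h1 (fun x => by rw [LinearMap.smul_apply, h, smul_zero])
    rw [Nat.cast_succ, add_smul, one_smul]
    exact h2

theorem Un.smul (h1 : Un K N) (h : ∀ x, N (N x) = 0) (c : ZMod p) : Un K (c • N) := by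
  have := h1.nsmul h c.val
  rwa [ZMod.natCast_zmod_val] at this

/-- transvection pairs of `K` -/
def TK (K : Subgroup (V ≃ₗ[ZMod p] V)) (v : V) (φ : Dual (ZMod p) V) : Prop :=
  v ≠ 0 ∧ φ ≠ 0 ∧ φ v = 0 ∧ Un K (φ.smulRight v)

theorem sq0 {v : V} {φ : Dual (ZMod p) V} (h : φ v = 0) (x : V) :
    φ.smulRight v (φ.smulRight v x) = 0 := by
  simp [h]

theorem TK.smul1 {v : V} {φ : Dual (ZMod p) V} (h : TK K v φ) {c : ZMod p} (hc : c ≠ 0) :
    TK K (c • v) φ := by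
  refine ⟨smul_ne_zero hc h.1, h.2.1, by rw [map_smul, h.2.2.1, smul_zero], ?_⟩
  have := h.2.2.2.smul (sq0 h.2.2.1) c
  have e : φ.smulRight (c • v) = c • φ.smulRight v := by
    ext x
    simp only [LinearMap.smulRight_apply, LinearMap.smul_apply]
    rw [smul_comm]
  rwa [e]

theorem TK.smul2 {v : V} {φ : Dual (ZMod p) V} (h : TK K v φ) {c : ZMod p} (hc : c ≠ 0) :
    TK K v (c • φ) := by
  refine ⟨h.1, smul_ne_zero hc h.2.1, by rw [LinearMap.smul_apply, h.2.2.1, smul_zero], ?_⟩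
  have := h.2.2.2.smul (sq0 h.2.2.1) c
  have e : (c • φ).smulRight v = c • φ.smulRight v := by
    ext x; simp [mul_smul]
  rwa [e]

theorem TK.add1 {v w : V} {φ : Dual (ZMod p) V} (h1 : TK K v φ) (h2 : TK K w φ) (h : v + w ≠ 0) :
    TK K (v + w) φ := by
  refine ⟨h, h1.2.1, by rw [map_add, h1.2.2.1, h2.2.2.1, add_zero], ?_⟩
  have := h1.2.2.2.add h2.2.2.2 (fun x => by simp [h2.2.2.1])
  have e : φ.smulRight (v + w) = φ.smulRight v + φ.smulRight w := by
    ext x; simp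
  rwa [e]

theorem TK.add2 {v : V} {φ ψ : Dual (ZMod p) V} (h1 : TK K v φ) (h2 : TK K v ψ) (h : φ + ψ ≠ 0) :
    TK K v (φ + ψ) := by
  refine ⟨h1.1, h, by rw [LinearMap.add_apply, h1.2.2.1, h2.2.2.1, add_zero], ?_⟩
  have := h1.2.2.2.add h2.2.2.2 (fun x => by simp [h1.2.2.1])
  have e : (φ + ψ).smulRight v = φ.smulRight v + ψ.smulRight v := by
    ext x; simp [add_smul]
  rwa [e]

theorem TK.quad (h20 : (2 : ZMod p) ≠ 0) {u a : V} {χ δ : Dual (ZMod p) V} (h1 : TK K u χ)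
    (h2 : TK K (u + a) (χ + δ)) (h3 : TK K (u + a + a) (χ + δ + δ)) (h4 : χ a = 0) (h5 : δ u = 0)
    (h6 : δ a = 0) (h7 : a ≠ 0) (h8 : δ ≠ 0) : TK K a δ := by
  have hu := h1.2.2.1
  refine ⟨h7, h8, h6, ?_⟩
  have g2 := h2.2.2.2.neg (sq0 h2.2.2.1)
  have k1 := h1.2.2.2.add g2 (fun x => by simp [hu, h4])
  have k2 := k1.add g2 (fun x => by simp [hu, h4, h5, h6])
  have k3 := k2.add h3.2.2.2 (fun x => by simp [hu, h4, h5, h6])
  have e : χ.smulRight u + -(χ + δ).smulRight (u + a) + -(χ + δ).smulRight (u + a) +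
      (χ + δ + δ).smulRight (u + a + a) = (2 : ZMod p) • δ.smulRight a := by
    ext x
    simp only [LinearMap.add_apply, LinearMap.neg_apply, LinearMap.smulRight_apply, LinearMap.smul_apply]
    module
  rw [e] at k3
  have k4 := k3.smul (fun x => by simp [h6]) (2 : ZMod p)⁻¹
  rwa [smul_smul, inv_mul_cancel₀ h20, one_smul] at k4

theorem TK.conj {v w : V} {φ ψ : Dual (ZMod p) V} (h1 : TK K v φ) (h2 : TK K w ψ) (c : ZMod p) :
    TK K (w + (c * φ w) • v) (ψ - (c * ψ v) • φ) := by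
  obtain ⟨g, hg, hg2⟩ := h1.2.2.2.smul (sq0 h1.2.2.1) c
  have hg3 : ∀ x, g x = x + (c * φ x) • v := by
    intro x; rw [hg2]; simp [smul_smul]
  have hg4 : ∀ x, g⁻¹ x = x - (c * φ x) • v := by
    intro x
    have h3 : g (g⁻¹ x) = x := by
      rw [← LinearEquiv.mul_apply, mul_inv_cancel]; rfl
    apply g.injective
    rw [h3, hg3, map_sub, map_smul, h1.2.2.1, smul_zero, sub_zero]
    abel
  have e1 : w + (c * φ w) • v = g w := (hg3 w).symm
  have e2 : ∀ x, (ψ - (c * ψ v) • φ) x = ψ (g⁻¹ x) := by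
    intro x
    rw [hg4, map_sub, map_smul, LinearMap.sub_apply, LinearMap.smul_apply, smul_eq_mul, smul_eq_mul]
    ring
  obtain ⟨k, hk, hk2⟩ := h2.2.2.2
  refine ⟨?_, ?_, ?_, g * k * g⁻¹, mul_mem (mul_mem hg hk) (inv_mem hg), ?_⟩
  · rw [e1]
    intro h
    exact h2.1 (g.injective (h.trans (map_zero g).symm))
  · intro h
    apply h2.2.1
    ext x
    have h3 := e2 (g x)
    have h4 : g⁻¹ (g x) = x := by
      rw [← LinearEquiv.mul_apply, inv_mul_cancel]; rfl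
    rw [h, h4] at h3
    exact h3.symm
  · rw [e2, e1]
    have h4 : g⁻¹ (g w) = w := by
      rw [← LinearEquiv.mul_apply, inv_mul_cancel]; rfl
    rw [h4]; exact h2.2.2.1
  · intro x
    rw [LinearEquiv.mul_apply, LinearEquiv.mul_apply, hk2, map_add, LinearMap.smulRight_apply,
      LinearMap.smulRight_apply, map_smul, e2, e1]
    have h3 : g (g⁻¹ x) = x := by
      rw [← LinearEquiv.mul_apply, mul_inv_cancel]; rfl
    rw [h3]

/-- `K` is generated by its transvections -/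
def Gen (K : Subgroup (V ≃ₗ[ZMod p] V)) : Prop :=
  K ≤ Subgroup.closure {g | ∃ v φ, TK K v φ ∧ ∀ x, g x = x + φ x • v}

def Red (K : Subgroup (V ≃ₗ[ZMod p] V)) : Prop :=
  ∀ Q : Subgroup (V ≃ₗ[ZMod p] V), Q ≤ K → (∀ k ∈ K, ∀ q ∈ Q, k * q * k⁻¹ ∈ Q) → (∀ q ∈ Q, q ^ p = 1) → Q = ⊥

theorem inv_apply {g : V ≃ₗ[ZMod p] V} {v : V} {φ : Dual (ZMod p) V} (h : φ v = 0)
    (hg : ∀ x, g x = x + φ x • v) (x : V) : g⁻¹ x = x - φ x • v := by
  have h3 : g (g⁻¹ x) = x := by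
    rw [← LinearEquiv.mul_apply, mul_inv_cancel]; rfl
  apply g.injective
  rw [h3, hg, map_sub, map_smul, h, smul_zero, sub_zero]
  abel

theorem Gen.stable (hG : Gen K) {X : Submodule (ZMod p) V}
    (hX : ∀ v φ, TK K v φ → v ∈ X ∨ ∀ x ∈ X, φ x = 0) {k : V ≃ₗ[ZMod p] V} (hk : k ∈ K) {x : V}
    (hx : x ∈ X) : k x ∈ X := by
  have key : ∀ k ∈ Subgroup.closure {g : V ≃ₗ[ZMod p] V | ∃ v φ, TK K v φ ∧ ∀ x, g x = x + φ x • v},
      (∀ x ∈ X, k x ∈ X) ∧ (∀ x ∈ X, k⁻¹ x ∈ X) := by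
    intro k hk
    induction hk using Subgroup.closure_induction with
    | mem g hg =>
      obtain ⟨v, φ, h1, h2⟩ := hg
      have h3 : ∀ x ∈ X, φ x • v ∈ X := by
        intro x hx
        rcases hX v φ h1 with h | h
        · exact Submodule.smul_mem _ _ h
        · rw [h x hx, zero_smul]; exact Submodule.zero_mem _
      constructor
      · intro x hx
        rw [h2]
        exact Submodule.add_mem _ hx (h3 x hx)
      · intro x hx
        rw [inv_apply h1.2.2.1 h2]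
        exact Submodule.sub_mem _ hx (h3 x hx)
    | one => exact ⟨fun x hx => hx, fun x hx => by rw [inv_one]; exact hx⟩
    | mul a b _ _ ha hb =>
      refine ⟨fun x hx => ?_, fun x hx => ?_⟩
      · rw [LinearEquiv.mul_apply]; exact ha.1 _ (hb.1 _ hx)
      · rw [mul_inv_rev, LinearEquiv.mul_apply]; exact hb.2 _ (ha.2 _ hx)
    | inv a _ ha => exact ⟨ha.2, by rw [inv_inv]; exact ha.1⟩
  exact (key k (hG hk)).1 x hx

theorem hN (hG : Gen K) (hR : Red K) (X : Submodule (ZMod p) V)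
    (hX : ∀ v φ, TK K v φ → v ∈ X ∨ ∀ x ∈ X, φ x = 0) (v : V) (φ : Dual (ZMod p) V)
    (h : TK K v φ) (hv : v ∈ X) : ∃ x ∈ X, φ x ≠ 0 := by
  by_contra hcon
  push Not at hcon
  have hinv : ∀ (g : V ≃ₗ[ZMod p] V) (x : V), g (g⁻¹ x) = x := by
    intro g x
    rw [← LinearEquiv.mul_apply, mul_inv_cancel]; rfl
  have hinv2 : ∀ (g : V ≃ₗ[ZMod p] V) (x : V), g⁻¹ (g x) = x := by
    intro g x
    rw [← LinearEquiv.mul_apply, inv_mul_cancel]; rfl
  let Q : Subgroup (V ≃ₗ[ZMod p] V) :=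
    { carrier := {g | g ∈ K ∧ (∀ x ∈ X, g x = x) ∧ ∀ x, g x - x ∈ X}
      mul_mem' := by
        rintro a b ⟨ha1, ha2, ha3⟩ ⟨hb1, hb2, hb3⟩
        refine ⟨mul_mem ha1 hb1, fun x hx => ?_, fun x => ?_⟩
        · rw [LinearEquiv.mul_apply, hb2 x hx, ha2 x hx]
        · rw [LinearEquiv.mul_apply]
          have := Submodule.add_mem _ (ha3 (b x)) (hb3 x)
          rwa [sub_add_sub_cancel] at this
      one_mem' := ⟨one_mem _, fun x _ => rfl, fun x => by
        change x - x ∈ X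
        rw [sub_self]; exact Submodule.zero_mem _⟩
      inv_mem' := by
        rintro a ⟨ha1, ha2, ha3⟩
        refine ⟨inv_mem ha1, fun x hx => ?_, fun x => ?_⟩
        · apply a.injective
          rw [hinv, ha2 x hx]
        · have := Submodule.neg_mem _ (ha3 (a⁻¹ x))
          rwa [hinv, neg_sub] at this }
  have hQ : Q = ⊥ := by
    refine hR Q (fun g hg => hg.1) ?_ ?_
    · rintro k hk q ⟨hq1, hq2, hq3⟩
      refine ⟨mul_mem (mul_mem hk hq1) (inv_mem hk), fun x hx => ?_, fun x => ?_⟩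
      · rw [LinearEquiv.mul_apply, LinearEquiv.mul_apply, hq2 _ (hG.stable hX (inv_mem hk) hx), hinv]
      · rw [LinearEquiv.mul_apply, LinearEquiv.mul_apply]
        have h1 := hG.stable hX hk (hq3 (k⁻¹ x))
        rwa [map_sub, hinv] at h1
    · rintro q ⟨hq1, hq2, hq3⟩
      have h1 : ∀ n : ℕ, ∀ x, (q ^ n) x = x + n • (q x - x) := by
        intro n
        induction n with
        | zero => intro x; rw [pow_zero, zero_smul, add_zero]; rfl
        | succ n ih =>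
          intro x
          rw [pow_succ', LinearEquiv.mul_apply, ih, map_add, map_nsmul, hq2 _ (hq3 x), succ_nsmul]
          abel
      ext x
      rw [h1]
      have h2 : p • (q x - x) = 0 := by
        rw [← Nat.cast_smul_eq_nsmul (ZMod p)]
        simp
      rw [h2, add_zero]; rfl
  obtain ⟨g, hg, hg2⟩ := h.2.2.2
  have h1 : g ∈ Q := by
    refine ⟨hg, fun x hx => ?_, fun x => ?_⟩
    · rw [hg2, LinearMap.smulRight_apply, hcon x hx, zero_smul, add_zero]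
    · rw [hg2, add_sub_cancel_left, LinearMap.smulRight_apply]
      exact Submodule.smul_mem _ _ hv
  rw [hQ, Subgroup.mem_bot] at h1
  obtain ⟨z, hz⟩ : ∃ y, φ y ≠ 0 := by
    by_contra h'
    push Not at h'
    exact h.2.1 (LinearMap.ext h')
  have h2 := hg2 z
  rw [h1, LinearMap.smulRight_apply] at h2
  have h3 : φ z • v = 0 := by
    have h4 : (1 : V ≃ₗ[ZMod p] V) z = z := rfl
    rw [h4] at h2
    exact left_eq_add.1 h2
  rcases smul_eq_zero.1 h3 with h4 | h4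
  · exact hz h4
  · exact h.1 h4

/-- connectedness -/
def Conn (K : Subgroup (V ≃ₗ[ZMod p] V)) : Prop :=
  ∀ P : V → Dual (ZMod p) V → Prop, (∀ v φ w ψ, TK K v φ → TK K w ψ → P v φ → (φ w ≠ 0 ∨ ψ v ≠ 0) → P w ψ) →
    (∃ v φ, TK K v φ ∧ P v φ) → ∀ v φ, TK K v φ → P v φ

theorem sysK (h20 : (2 : ZMod p) ≠ 0) (hG : Gen K) (hR : Red K) (hC : Conn K) :
    Sys (Dual.eval (ZMod p) V) (TK K) where
  zero h := h.2.2.1
  ne1 h := h.1
  ne2 h := h.2.1
  smul1 h _ hc := h.smul1 hc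
  smul2 h _ hc := h.smul2 hc
  conj h1 h2 c := h1.conj h2 c
  add1 h1 h2 h := h1.add1 h2 h
  add2 h1 h2 h := h1.add2 h2 h
  quad h1 h2 h3 h4 h5 h6 h7 h8 := TK.quad h20 h1 h2 h3 h4 h5 h6 h7 h8
  hN X hX v φ h hv := hN hG hR X hX v φ h hv
  hC P hP h v φ hv := hC P hP h v φ hv
  two := h20

end Cfsg.Agent.H13.McL
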