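import Mathlib
import Cfsg.Agent.H13_McL3
import Cfsg.Agent.H5_SymSp
import Cfsg.Agent.H5_SL

/-! McLaughlin transvection groups: one piece. -/

namespace Cfsg.Agent.H13.McL

open Module

/-- `SL(W)` is generated by transvections -/
theorem sl_gen {F W : Type*} [Field F] [AddCommGroup W] [Module F W] [FiniteDimensional F W]
    (h2 : 2 ≤ finrank F W) (L : Subgroup (W ≃ₗ[F] W))
    (hL : ∀ (v : W) (φ : Dual F W), v ≠ 0 → φ ≠ 0 → φ v = 0 → ∃ g ∈ L, ∀ x, g x = x + φ x • v)
    (f : W ≃ₗ[F] W) (hf : LinearMap.det (f : W →ₗ[F] W) = 1) : f ∈ L := by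
  classical
  set n := finrank F W with hn
  let b : Basis (Fin n) F W := Module.finBasis F W
  let Φ : Matrix.SpecialLinearGroup (Fin n) F →* (W ≃ₗ[F] W) :=
    MonoidHom.mk' (fun M => LinearEquiv.ofLinear (Matrix.toLin b b M.1) (Matrix.toLin b b (M⁻¹).1)
      (by
        rw [← Matrix.toLin_mul, ← Matrix.SpecialLinearGroup.coe_mul, mul_inv_cancel,
          Matrix.SpecialLinearGroup.coe_one, Matrix.toLin_one])
      (by
        rw [← Matrix.toLin_mul, ← Matrix.SpecialLinearGroup.coe_mul, inv_mul_cancel,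
          Matrix.SpecialLinearGroup.coe_one, Matrix.toLin_one])) (by
      intro M N
      ext x
      rw [LinearEquiv.mul_apply]
      change Matrix.toLin b b (M * N).1 x = Matrix.toLin b b M.1 (Matrix.toLin b b N.1 x)
      rw [Matrix.SpecialLinearGroup.coe_mul, Matrix.toLin_mul b b b]
      rfl)
  have hΦ : ∀ M x, Φ M x = Matrix.toLin b b M.1 x := fun _ _ => rfl
  haveI : Nontrivial (Fin n) := Fin.nontrivial_iff_two_le.2 h2
  have hcl : L.comap Φ = ⊤ := by
    rw [eq_top_iff, ← H5.SL.closure_transvections, Subgroup.closure_le]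
    rintro _ ⟨i, j, hij, a, rfl⟩
    rw [SetLike.mem_coe, Subgroup.mem_comap]
    have h3 : ∀ x, Φ (Matrix.SpecialLinearGroup.transvection hij a) x = x + (a • b.coord j) x • b i := by
      intro x
      rw [hΦ]
      change Matrix.toLin b b (1 + Matrix.single i j a) x = _
      rw [map_add, Matrix.toLin_one]
      rw [LinearMap.add_apply, LinearMap.id_apply]
      congr 1
      rw [Matrix.toLin_apply]
      simp only [LinearMap.smul_apply, Basis.coord_apply]
      rw [Finset.sum_eq_single i]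
      · congr 1
        simp [Matrix.single_mulVec]
      · intro k _ hk
        rw [Matrix.single_mulVec]
        simp [hk]
      · simp
    by_cases ha : a = 0
    · have : Φ (Matrix.SpecialLinearGroup.transvection hij a) = 1 := by
        ext x
        rw [h3, ha, zero_smul]
        simp
      rw [this]; exact one_mem _
    · obtain ⟨g, hg, hg2⟩ := hL (b i) (a • b.coord j) (b.ne_zero i) (by
        intro h
        have h4 := LinearMap.congr_fun h (b j)
        simp at h4
        exact ha h4) (by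
        simp [hij])
      have : Φ (Matrix.SpecialLinearGroup.transvection hij a) = g := by
        ext x
        rw [h3, hg2]
      rw [this]; exact hg
  let M0 : Matrix.SpecialLinearGroup (Fin n) F :=
    ⟨LinearMap.toMatrix b b (f : W →ₗ[F] W), by rw [LinearMap.det_toMatrix, hf]⟩
  have h4 : M0 ∈ L.comap Φ := by rw [hcl]; exact Subgroup.mem_top _
  rw [Subgroup.mem_comap] at h4
  have h5 : Φ M0 = f := by
    ext x
    rw [hΦ]
    change Matrix.toLin b b (LinearMap.toMatrix b b (f : W →ₗ[F] W)) x = f x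
    rw [Matrix.toLin_toMatrix]
    rfl
  rwa [h5] at h4

open Matrix in
/-- `Sp(W)` is generated by its transvections -/
theorem sp_gen {F W : Type*} [Field F] [AddCommGroup W] [Module F W] [FiniteDimensional F W]
    (B : LinearMap.BilinForm F W) (hA : B.IsAlt) (hnd : B.Nondegenerate) (L : Subgroup (W ≃ₗ[F] W))
    (hL : ∀ (v : W) (c : F), v ≠ 0 → ∃ g ∈ L, ∀ x, g x = x + (c * B v x) • v)
    (f : W ≃ₗ[F] W) (hf : ∀ x y, B (f x) (f y) = B x y) : f ∈ L := by
  classical
  have hnd' : ∀ x, (∀ y, B x y = 0) → x = 0 := fun x hx => hnd.1 x hx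
  obtain ⟨m, hm⟩ : ∃ m, finrank F W = 2 * m := by
    obtain ⟨m', k, b, h1, h2, h3, h4⟩ := S0752.result B hA
    have hk : k = 0 := by
      by_contra hk
      have h5 : b (Sum.inr ⟨0, Nat.pos_of_ne_zero hk⟩) = 0 := hnd' _ (fun y => h4 _ y)
      exact b.ne_zero _ h5
    subst hk
    refine ⟨m', ?_⟩
    have := finrank_eq_card_basis b
    simp at this
    omega
  obtain ⟨ψ, hψ⟩ := H5.SymSp.exists_isometry B hA hnd' hm
  let Φ : Matrix.symplecticGroup (Fin m) F →* (W ≃ₗ[F] W) :=
    MonoidHom.mk' (fun M => (ψ.trans (H5.Conc.spEquiv m F M).1).trans ψ.symm) (by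
      intro M N
      ext x
      rw [LinearEquiv.mul_apply]
      change ψ.symm ((H5.Conc.spEquiv m F (M * N)).1 (ψ x)) =
        ψ.symm ((H5.Conc.spEquiv m F M).1 (ψ (ψ.symm ((H5.Conc.spEquiv m F N).1 (ψ x)))))
      rw [LinearEquiv.apply_symm_apply, map_mul]
      rfl)
  have hΦ : ∀ M x, Φ M x = ψ.symm (M.1 *ᵥ (ψ x)) := fun _ _ => rfl
  have hcl : L.comap Φ = ⊤ := by
    rw [eq_top_iff, ← H5.Symp.H_eq_top, H5.Symp.H, Subgroup.closure_le]
    rintro A ⟨w, c, hA2⟩
    rw [SetLike.mem_coe, Subgroup.mem_comap]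
    by_cases hw : w = 0
    · have : Φ A = 1 := by
        ext x
        rw [hΦ, hA2, H5.Symp.T_mulVec, hw, smul_zero, add_zero, LinearEquiv.symm_apply_apply]
        rfl
      rw [this]; exact one_mem _
    · obtain ⟨g, hg, hg2⟩ := hL (ψ.symm w) (-c) (by
        intro h
        apply hw
        rw [← LinearEquiv.apply_symm_apply ψ w, h, map_zero])
      have : Φ A = g := by
        ext x
        rw [hΦ, hA2, H5.Symp.T_mulVec, hg2, map_add, map_smul, LinearEquiv.symm_apply_apply, ← hψ,
          LinearEquiv.apply_symm_apply, H5.Symp.swap (ψ x) w]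
        congr 2
        ring
      rw [this]; exact hg
  set f' := (ψ.symm.trans f).trans ψ with hf'
  have h6 : f' ∈ (H5.Conc.sympFrm m F).isom := by
    rw [H5.Conc.mem_sympFrm_isom]
    intro u v
    rw [hf']
    simp only [LinearEquiv.trans_apply]
    rw [hψ, hf, ← hψ, LinearEquiv.apply_symm_apply, LinearEquiv.apply_symm_apply]
  obtain ⟨M, hM⟩ := (H5.Conc.spEquiv m F).surjective ⟨f', h6⟩
  have h7 : M ∈ L.comap Φ := by rw [hcl]; exact Subgroup.mem_top _
  rw [Subgroup.mem_comap] at h7
  have h8 : Φ M = f := by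
    ext x
    change ψ.symm ((H5.Conc.spEquiv m F M).1 (ψ x)) = f x
    rw [hM]
    change ψ.symm (f' (ψ x)) = f x
    rw [hf']
    simp
  rwa [h8] at h7

/-- restriction -/
def resHom {F V : Type*} [Field F] [AddCommGroup V] [Module F V] (K : Subgroup (V ≃ₗ[F] V))
    (W : Submodule F V) (h : ∀ g ∈ K, ∀ x ∈ W, g x ∈ W) : ↥K →* (W ≃ₗ[F] W) :=
  MonoidHom.mk' (fun g =>
    { toFun := fun x => ⟨g.1 x, h g.1 g.2 x x.2⟩
      map_add' := fun x y => by ext; simp
      map_smul' := fun c x => by ext; simp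
      invFun := fun x => ⟨g.1⁻¹ x, h _ (inv_mem g.2) x x.2⟩
      left_inv := fun x => by
        ext
        change g.1⁻¹ (g.1 (x : V)) = x
        rw [← LinearEquiv.mul_apply, inv_mul_cancel]; rfl
      right_inv := fun x => by
        ext
        change g.1 (g.1⁻¹ (x : V)) = x
        rw [← LinearEquiv.mul_apply, mul_inv_cancel]; rfl }) (by
    intro a b
    ext x
    rfl)

theorem resHom_apply {F V : Type*} [Field F] [AddCommGroup V] [Module F V] (K : Subgroup (V ≃ₗ[F] V))
    (W : Submodule F V) (h : ∀ g ∈ K, ∀ x ∈ W, g x ∈ W) (g : ↥K) (x : W) :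
    ((resHom K W h g x : W) : V) = g.1 x := rfl

section

variable {F V : Type*} [Field F] [AddCommGroup V] [Module F V] [FiniteDimensional F V]
  {T : V → Dual F V → Prop} (S : Sys (Dual.eval F V) T)

/-- transfer of the pairs to `W` -/
def T' (S : Sys (Dual.eval F V) T) (v : Sys.W (F := F) T) (φ : Dual F (Sys.W (F := F) T)) : Prop :=
  T v (φ.comp ((Sys.W (F := F) T).projectionOnto _ S.isCompl))

theorem comp_res {φ : Dual F V} (h : ∀ x ∈ Sys.R (Dual.eval F V) T, φ x = 0) :
    (φ.comp (Sys.W (F := F) T).subtype).comp ((Sys.W (F := F) T).projectionOnto _ S.isCompl) = φ := by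
  ext x
  have h1 : x - ((Sys.W (F := F) T).projectionOnto _ S.isCompl x : V) ∈ Sys.R (Dual.eval F V) T := by
    rw [← Submodule.projectionOnto_apply_eq_zero_iff S.isCompl, map_sub,
      Submodule.projectionOnto_apply_left, sub_self]
  have h2 := h _ h1
  rw [map_sub, sub_eq_zero] at h2
  exact h2.symm

theorem T'_of {v : V} {φ : Dual F V} (h : T v φ) :
    T' S ⟨v, Submodule.subset_span ⟨φ, h⟩⟩ (φ.comp (Sys.W (F := F) T).subtype) := by
  change T v _
  rw [comp_res S (φ := φ) (fun x hx => hx v φ h)]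
  exact h

theorem fullT' : Full (T' S) where
  zero := by
    intro v φ h
    have := S.zero h
    change φ ((Sys.W (F := F) T).projectionOnto _ S.isCompl v) = 0 at this
    rwa [Submodule.projectionOnto_apply_left] at this
  ne1 := by
    rintro v φ h rfl
    exact S.ne1 h rfl
  ne2 := by
    rintro v φ h rfl
    exact S.ne2 h (LinearMap.zero_comp _)
  smul2 := by
    intro v φ h c hc
    exact S.smul2 h hc
  conj := by
    intro v φ w ψ h1 h2 h3 a
    have e1 : ∀ (α : Dual F (Sys.W (F := F) T)) (x : Sys.W (F := F) T),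
        (α.comp ((Sys.W (F := F) T).projectionOnto _ S.isCompl)) (x : V) = α x := by
      intro α x
      change α ((Sys.W (F := F) T).projectionOnto _ S.isCompl x) = _
      rw [Submodule.projectionOnto_apply_left]
    have h4 := S.t1c h1 h2 (by rw [Dual.eval_apply, e1]; exact h3) a
    rw [Dual.eval_apply, Dual.eval_apply, e1, e1] at h4
    exact h4
  add2 := by
    intro v φ ψ h1 h2 h3
    refine S.add2 h1 h2 ?_
    intro h
    apply h3
    ext x
    have := LinearMap.congr_fun h x
    change (φ + ψ) ((Sys.W (F := F) T).projectionOnto _ S.isCompl x) = 0 at this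
    rwa [Submodule.projectionOnto_apply_left] at this
  t3 := by
    intro v φ w ψ h1 h2 h3 h4
    have e1 : ∀ (α : Dual F (Sys.W (F := F) T)) (x : Sys.W (F := F) T),
        (α.comp ((Sys.W (F := F) T).projectionOnto _ S.isCompl)) (x : V) = α x := by
      intro α x
      change α ((Sys.W (F := F) T).projectionOnto _ S.isCompl x) = _
      rw [Submodule.projectionOnto_apply_left]
    exact S.t3 h1 h2 (by rw [Dual.eval_apply, e1]; exact h3) (by rw [Dual.eval_apply, e1]; exact h4)
  full := by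
    intro v hv
    obtain ⟨v, hvW⟩ := v
    rcases S.mem_W.1 hvW with h | ⟨φ, h⟩
    · exact absurd (Subtype.ext h) hv
    · exact ⟨_, T'_of S h⟩
  x2 := by
    rintro ⟨a, ha⟩ ⟨b, hb⟩ μ ha0 hb0 hμ
    have e1 : ∀ (α : Dual F (Sys.W (F := F) T)) (x : Sys.W (F := F) T),
        (α.comp ((Sys.W (F := F) T).projectionOnto _ S.isCompl)) (x : V) = α x := by
      intro α x
      change α ((Sys.W (F := F) T).projectionOnto _ S.isCompl x) = _
      rw [Submodule.projectionOnto_apply_left]
    have hR : ∀ c : V, c ∈ Sys.W (F := F) T → c ≠ 0 → c ∉ Sys.R (Dual.eval F V) T := by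
      intro c hc hc0 hcR
      exact hc0 (Submodule.disjoint_def.1 S.disj c hc hcR)
    obtain ⟨⟨w, hw⟩, hw2⟩ : ∃ y, μ y ≠ 0 := by
      by_contra h'
      push Not at h'
      exact hμ (LinearMap.ext h')
    have hw0 : w ≠ 0 := by
      rintro rfl
      exact hw2 (map_zero μ)
    obtain ⟨ψ, hψ⟩ := (S.mem_W.1 hw).resolve_left hw0
    obtain ⟨x, χ, h1, h2, h3, h4⟩ := S.lemX2 (hR a ha (fun h => ha0 (Subtype.ext h)))
      (hR b hb (fun h => hb0 (Subtype.ext h)))
      (μ := μ.comp ((Sys.W (F := F) T).projectionOnto _ S.isCompl))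
      ⟨w, ψ, hψ, by
        have := e1 μ ⟨w, hw⟩
        rw [Dual.eval_apply, this]
        exact hw2⟩
    refine ⟨⟨x, Submodule.subset_span ⟨χ, h1⟩⟩, _, T'_of S h1, h2, h3, ?_⟩
    have := e1 μ ⟨x, Submodule.subset_span ⟨χ, h1⟩⟩
    rw [Dual.eval_apply, this] at h4
    exact h4
  two := S.two

end

end Cfsg.Agent.H13.McL
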