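import Mathlib
import Cfsg.Agent.H13_McL4

/-! McLaughlin transvection groups: the action on one piece. -/

namespace Cfsg.Agent.H13.McL

open Module

variable {p : ℕ} [Fact p.Prime] {V : Type*} [AddCommGroup V] [Module (ZMod p) V]
  {K : Subgroup (V ≃ₗ[ZMod p] V)}

theorem Gen.induction (hG : Gen K) {P : ↥K → Prop} (h1 : P 1) (hmul : ∀ a b, P a → P b → P (a * b))
    (hinv : ∀ a, P a → P a⁻¹)
    (hgen : ∀ (g : ↥K) v φ, TK K v φ → (∀ x, g.1 x = x + φ x • v) → P g) (g : ↥K) : P g := by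
  have hsub : ∀ g : V ≃ₗ[ZMod p] V, (∃ v φ, TK K v φ ∧ ∀ x, g x = x + φ x • v) → g ∈ K := by
    rintro g ⟨v, φ, h, h2⟩
    obtain ⟨g', hg', h3⟩ := h.2.2.2
    have : g = g' := by
      ext x
      rw [h2, h3]; rfl
    rw [this]; exact hg'
  have hle : Subgroup.closure {g : V ≃ₗ[ZMod p] V | ∃ v φ, TK K v φ ∧ ∀ x, g x = x + φ x • v} ≤ K :=
    (Subgroup.closure_le _).2 hsub
  have key : ∀ g : V ≃ₗ[ZMod p] V,
      g ∈ Subgroup.closure {g : V ≃ₗ[ZMod p] V | ∃ v φ, TK K v φ ∧ ∀ x, g x = x + φ x • v} →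
      ∀ hK : g ∈ K, P ⟨g, hK⟩ := by
    intro g hg
    induction hg using Subgroup.closure_induction with
    | mem g hg =>
      intro hK
      obtain ⟨v, φ, h, h2⟩ := hg
      exact hgen ⟨g, hK⟩ v φ h h2
    | one => intro _; exact h1
    | mul a b ha hb iha ihb =>
      intro _
      exact hmul ⟨a, hle ha⟩ ⟨b, hle hb⟩ (iha _) (ihb _)
    | inv a ha iha =>
      intro _
      exact hinv ⟨a, hle ha⟩ (iha _)
  exact key g.1 (hG g.2) g.2

variable [Finite V]

theorem invW (h20 : (2 : ZMod p) ≠ 0) (hG : Gen K) (hR : Red K) (hC : Conn K) :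
    ∀ g ∈ K, ∀ x ∈ Sys.W (F := ZMod p) (TK K), g x ∈ Sys.W (F := ZMod p) (TK K) := by
  intro g hg x hx
  exact hG.stable (X := Sys.W (F := ZMod p) (TK K)) (fun v φ h => Or.inl (Submodule.subset_span ⟨φ, h⟩)) hg hx

omit [Finite V] in
theorem fixR (hG : Gen K) :
    ∀ g ∈ K, ∀ x ∈ Sys.R (Dual.eval (ZMod p) V) (TK K), g x = x := by
  intro g hg x hx
  suffices h : ∀ g : ↥K, g.1 x = x from h ⟨g, hg⟩
  refine hG.induction (P := fun g : ↥K => g.1 x = x) rfl ?_ ?_ ?_
  · intro a b ha hb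
    change a.1 (b.1 x) = x
    rw [hb, ha]
  · intro a ha
    apply a.1.injective
    change a.1 (a.1⁻¹ x) = a.1 x
    rw [← LinearEquiv.mul_apply, mul_inv_cancel, ha]; rfl
  · intro g v φ h h2
    rw [h2]
    have : φ x = 0 := hx v φ h
    rw [this, zero_smul, add_zero]

theorem piece (h20 : (2 : ZMod p) ≠ 0) (hG : Gen K) (hR : Red K) (hC : Conn K)
    (hne : ∃ v φ, TK K v φ) :
    ∃ ρ : ↥K →* (↥(Sys.W (F := ZMod p) (TK K)) ≃ₗ[ZMod p] ↥(Sys.W (F := ZMod p) (TK K))),
      (∀ (h : ↥K) (v : ↥(Sys.W (F := ZMod p) (TK K))),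
        ((ρ h v : ↥(Sys.W (F := ZMod p) (TK K))) : V) = (h : V ≃ₗ[ZMod p] V) (v : V)) ∧
      ((ρ.range : Set (↥(Sys.W (F := ZMod p) (TK K)) ≃ₗ[ZMod p] ↥(Sys.W (F := ZMod p) (TK K)))) =
          {f : ↥(Sys.W (F := ZMod p) (TK K)) ≃ₗ[ZMod p] ↥(Sys.W (F := ZMod p) (TK K)) | LinearMap.det (f : ↥(Sys.W (F := ZMod p) (TK K)) →ₗ[ZMod p] ↥(Sys.W (F := ZMod p) (TK K))) = 1} ∨
        ∃ B : LinearMap.BilinForm (ZMod p) ↥(Sys.W (F := ZMod p) (TK K)), B.IsAlt ∧ B.Nondegenerate ∧
          (ρ.range : Set (↥(Sys.W (F := ZMod p) (TK K)) ≃ₗ[ZMod p] ↥(Sys.W (F := ZMod p) (TK K)))) =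
            {f | ∀ x y, B (f x) (f y) = B x y}) := by
  have S := sysK h20 hG hR hC
  have hinv := invW h20 hG hR hC
  set W := Sys.W (F := ZMod p) (TK K) with hW
  have S' := fullT' S
  refine ⟨resHom K W hinv, resHom_apply K W hinv, ?_⟩
  obtain ⟨v0, φ0, h0⟩ := hne
  have h0' := T'_of S h0
  -- elements from T'
  have hel : ∀ (v : W) (φ : Dual (ZMod p) W), T' S v φ → ∀ c : ZMod p,
      ∃ g ∈ (resHom K W hinv).range, ∀ x, g x = x + (c * φ x) • v := by
    intro v φ h c
    obtain ⟨g, hg, hg2⟩ := h.2.2.2.smul (sq0 h.2.2.1) c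
    refine ⟨resHom K W hinv ⟨g, hg⟩, ⟨_, rfl⟩, fun x => ?_⟩
    apply Subtype.ext
    rw [resHom_apply, hg2]
    change (x : V) + c • (φ (W.projectionOnto _ S.isCompl (x : V)) • (v : V)) = x + (c * φ x) • (v : V)
    rw [Submodule.projectionOnto_apply_left, smul_smul]
  -- generators
  have hgen : ∀ (g : ↥K) v φ (h : TK K v φ), (∀ x, g.1 x = x + φ x • v) →
      ∀ x, resHom K W hinv g x = x + (φ.comp W.subtype) x • (⟨v, Submodule.subset_span ⟨φ, h⟩⟩ : W) := by
    intro g v φ h hg x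
    apply Subtype.ext
    rw [resHom_apply, hg]
    rfl
  rcases S'.dich ⟨_, S'.ne1 h0'⟩ with hall | ⟨B, hB1, hB2, hB3, hB4⟩
  · left
    have h2 : 2 ≤ finrank (ZMod p) W := by
      by_contra hcon
      obtain ⟨y, hy⟩ : ∃ y, (φ0.comp W.subtype) y ≠ 0 := by
        by_contra h'
        push Not at h'
        exact S'.ne2 h0' (LinearMap.ext h')
      have hz := S'.zero h0'
      have hv0 := S'.ne1 h0'
      have hpos : 0 < finrank (ZMod p) W := by
        have : Nontrivial W := ⟨_, _, hv0⟩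
        exact finrank_pos
      have h1 : finrank (ZMod p) W = 1 := by omega
      obtain ⟨c, hc⟩ := exists_smul_eq_of_finrank_eq_one h1 hv0 y
      rw [← hc, map_smul, hz, smul_zero] at hy
      exact hy rfl
    ext f
    constructor
    · rintro ⟨g, rfl⟩
      have : LinearEquiv.det (resHom K W hinv g) = 1 := by
        refine hG.induction (P := fun g => LinearEquiv.det (resHom K W hinv g) = 1) ?_ ?_ ?_ ?_ g
        · rw [map_one, map_one]
        · intro a b ha hb
          rw [map_mul, map_mul, ha, hb, one_mul]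
        · intro a ha
          rw [map_inv, map_inv, ha, inv_one]
        · intro g v φ h hg
          apply Units.ext
          rw [LinearEquiv.coe_det, Units.val_one]
          have h3 : (resHom K W hinv g : W →ₗ[ZMod p] W) = LinearMap.transvection (φ.comp W.subtype)
              (⟨v, Submodule.subset_span ⟨φ, h⟩⟩ : W) := by
            apply LinearMap.ext
            intro x
            rw [LinearMap.transvection.apply]
            exact hgen g v φ h hg x
          rw [h3, LinearMap.transvection.det]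
          have : (φ.comp W.subtype) (⟨v, Submodule.subset_span ⟨φ, h⟩⟩ : W) = 0 := h.2.2.1
          rw [this, add_zero]
      have h3 := congrArg Units.val this
      rwa [LinearEquiv.coe_det, Units.val_one] at h3
    · intro hf
      refine sl_gen h2 _ ?_ f hf
      intro v φ hv hφ hvφ
      obtain ⟨g, hg, hg2⟩ := hel v φ (hall v φ hv hφ hvφ) 1
      exact ⟨g, hg, fun x => by rw [hg2, one_mul]⟩
  · right
    refine ⟨B, hB1, hB2, ?_⟩
    ext f
    constructor
    · rintro ⟨g, rfl⟩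
      change ∀ x y, B (resHom K W hinv g x) (resHom K W hinv g y) = B x y
      refine hG.induction (P := fun g => ∀ x y, B (resHom K W hinv g x) (resHom K W hinv g y) = B x y)
        ?_ ?_ ?_ ?_ g
      · intro x y; rfl
      · intro a b ha hb x y
        rw [map_mul, LinearEquiv.mul_apply, LinearEquiv.mul_apply, ha, hb]
      · intro a ha x y
        have h3 : ∀ x, resHom K W hinv a (resHom K W hinv a⁻¹ x) = x := by
          intro x
          rw [← LinearEquiv.mul_apply, ← map_mul, mul_inv_cancel, map_one]; rfl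
        rw [← ha, h3, h3]
      · intro g v φ h hg x y
        obtain ⟨c, hc⟩ := hB4 _ _ (T'_of S h)
        rw [hgen g v φ h hg, hgen g v φ h hg, hc]
        simp only [map_add, map_smul, LinearMap.add_apply, LinearMap.smul_apply, smul_eq_mul,
          hB1.self_eq_zero]
        have hneg : ∀ z, B z ⟨v, Submodule.subset_span ⟨φ, h⟩⟩ = - B ⟨v, Submodule.subset_span ⟨φ, h⟩⟩ z :=
          fun z => (hB1.neg_eq _ _).symm
        rw [hneg x]
        ring
    · intro hf
      refine sp_gen B hB1 hB2 _ ?_ f hf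
      intro v c hv
      exact hel v (B v) (hB3 v hv) c

end Cfsg.Agent.H13.McL
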