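import Mathlib
import Cfsg.Agent.H13_McL5

/-! McLaughlin transvection groups: components. -/

namespace Cfsg.Agent.H13.McL

open Module

variable {p : ℕ} [Fact p.Prime] {V : Type*} [AddCommGroup V] [Module (ZMod p) V]

theorem trans_pow {g : V ≃ₗ[ZMod p] V} {v : V} {φ : Dual (ZMod p) V} (h : φ v = 0)
    (hg : ∀ x, g x = x + φ x • v) : g ^ p = 1 := by
  have h1 : ∀ n : ℕ, ∀ x, (g ^ n) x = x + n • (φ x • v) := by
    intro n
    induction n with
    | zero => intro x; rw [pow_zero, zero_smul, add_zero]; rfl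
    | succ n ih =>
      intro x
      rw [pow_succ', LinearEquiv.mul_apply, ih, hg, map_add, map_nsmul, map_smul, h, smul_zero,
        smul_zero, add_zero, succ_nsmul]
      abel
  ext x
  rw [h1]
  have h2 : p • (φ x • v) = 0 := by
    rw [← Nat.cast_smul_eq_nsmul (ZMod p)]
    simp
  rw [h2, add_zero]; rfl

theorem ne_one {g : V ≃ₗ[ZMod p] V} {v : V} {φ : Dual (ZMod p) V} (hv : v ≠ 0) (hφ : φ ≠ 0)
    (hg : ∀ x, g x = x + φ x • v) : g ≠ 1 := by
  rintro rfl
  obtain ⟨z, hz⟩ : ∃ y, φ y ≠ 0 := by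
    by_contra h'
    push Not at h'
    exact hφ (LinearMap.ext h')
  have h2 := hg z
  have h3 : φ z • v = 0 := by
    have h4 : (1 : V ≃ₗ[ZMod p] V) z = z := rfl
    rw [h4] at h2
    exact left_eq_add.1 h2
  rcases smul_eq_zero.1 h3 with h4 | h4
  · exact hz h4
  · exact hv h4

theorem TK.mono {K L : Subgroup (V ≃ₗ[ZMod p] V)} (h : K ≤ L) {v : V} {φ : Dual (ZMod p) V}
    (h2 : TK K v φ) : TK L v φ := by
  obtain ⟨a, b, c, g, hg, hg2⟩ := h2
  exact ⟨a, b, c, g, h hg, hg2⟩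

variable (H : Subgroup (V ≃ₗ[ZMod p] V))

def Pr := {a : V × Dual (ZMod p) V // TK H a.1 a.2}

def adj (a b : Pr H) : Prop := a.1.2 b.1.1 ≠ 0 ∨ b.1.2 a.1.1 ≠ 0

def st : Setoid (Pr H) := Relation.EqvGen.setoid (adj H)

def comp (q : Quotient (st H)) : Subgroup (V ≃ₗ[ZMod p] V) :=
  Subgroup.closure {g | ∃ a : Pr H, Quotient.mk (st H) a = q ∧ ∀ x, g x = x + a.1.2 x • a.1.1}

variable {H}

theorem perp {a b : Pr H} (h : Quotient.mk (st H) a ≠ Quotient.mk (st H) b) :
    a.1.2 b.1.1 = 0 ∧ b.1.2 a.1.1 = 0 := by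
  by_contra hcon
  apply h
  apply Quotient.sound
  refine Relation.EqvGen.rel _ _ ?_
  change a.1.2 b.1.1 ≠ 0 ∨ b.1.2 a.1.1 ≠ 0
  by_contra h2
  push Not at h2
  exact hcon h2

theorem comp_comm {q q' : Quotient (st H)} (h : q ≠ q') {g k : V ≃ₗ[ZMod p] V} (hg : g ∈ comp H q)
    (hk : k ∈ comp H q') : g * k = k * g := by
  have h1 : comp H q ≤ Subgroup.centralizer (comp H q' : Set (V ≃ₗ[ZMod p] V)) := by
    rw [comp, Subgroup.closure_le]
    rintro g ⟨a, ha, hg⟩
    rw [SetLike.mem_coe, Subgroup.mem_centralizer_iff]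
    have h2 : comp H q' ≤ Subgroup.centralizer ({g} : Set (V ≃ₗ[ZMod p] V)) := by
      rw [comp, Subgroup.closure_le]
      rintro k ⟨b, hb, hk⟩
      rw [SetLike.mem_coe, Subgroup.mem_centralizer_iff]
      rintro _ rfl
      have h3 := perp (a := a) (b := b) (by rw [ha, hb]; exact h)
      ext x
      rw [LinearEquiv.mul_apply, LinearEquiv.mul_apply, hk, hg, hk, hg, map_add, map_add, map_smul, map_smul,
        h3.1, h3.2, smul_zero, smul_zero, add_zero, add_zero]
      abel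
    intro k hk
    have := Subgroup.mem_centralizer_iff.1 (h2 hk) g rfl
    exact this.symm
  exact (Subgroup.mem_centralizer_iff.1 (h1 hg) k hk).symm

theorem mem_comp (a : Pr H) {g : V ≃ₗ[ZMod p] V} (hg : ∀ x, g x = x + a.1.2 x • a.1.1) :
    g ∈ comp H (Quotient.mk (st H) a) := Subgroup.subset_closure ⟨a, rfl, hg⟩

theorem comp_le (q : Quotient (st H)) : comp H q ≤ H := by
  rw [comp, Subgroup.closure_le]
  rintro g ⟨a, ha, hg⟩
  obtain ⟨g', hg', h3⟩ := a.2.2.2.2
  have : g = g' := by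
    ext x
    rw [hg, h3]; rfl
  rw [this]; exact hg'

theorem TK_comp (a : Pr H) : TK (comp H (Quotient.mk (st H) a)) a.1.1 a.1.2 := by
  obtain ⟨g', hg', h3⟩ := a.2.2.2.2
  exact ⟨a.2.1, a.2.2.1, a.2.2.2.1, g', mem_comp a (fun x => h3 x), h3⟩

theorem le_sup (hG : Gen H) : H ≤ ⨆ q, comp H q := by
  refine hG.trans ((Subgroup.closure_le _).2 ?_)
  rintro g ⟨v, φ, h, hg⟩
  exact (le_iSup (comp H) _) (mem_comp ⟨(v, φ), h⟩ hg)

theorem norm (hG : Gen H) (q : Quotient (st H)) (Q : Subgroup (V ≃ₗ[ZMod p] V)) (hQ : Q ≤ comp H q)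
    (hn : ∀ k ∈ comp H q, ∀ x ∈ Q, k * x * k⁻¹ ∈ Q) : ∀ k ∈ H, ∀ x ∈ Q, k * x * k⁻¹ ∈ Q := by
  have h1 : comp H q ≤ Subgroup.normalizer (Q : Set (V ≃ₗ[ZMod p] V)) := by
    intro k hk
    rw [Subgroup.mem_normalizer_iff]
    intro x
    constructor
    · exact hn k hk x
    · intro hx
      have := hn k⁻¹ (inv_mem hk) _ hx
      simpa [mul_assoc] using this
  have h2 : ⨆ q, comp H q ≤ Subgroup.normalizer (Q : Set (V ≃ₗ[ZMod p] V)) := by
    refine iSup_le fun q' => ?_
    by_cases h : q' = q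
    · rw [h]; exact h1
    · intro k hk
      rw [Subgroup.mem_normalizer_iff]
      intro x
      constructor
      · intro hx
        rw [comp_comm h hk (hQ hx), mul_inv_cancel_right]; exact hx
      · intro hx
        have h3 := comp_comm h hk (hQ hx)
        have h4 : k * x * k⁻¹ = x := by
          have h5 : k * (k * x * k⁻¹) = (k * x * k⁻¹) * k := h3
          have h7 : k * (k * x * k⁻¹) = k * x := by rw [h5, inv_mul_cancel_right]
          exact mul_left_cancel h7
        rwa [h4] at hx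
  intro k hk x hx
  exact (Subgroup.mem_normalizer_iff.1 (h2 (le_sup hG hk)) x).1 hx

theorem comp_eq (hG : Gen H) (hR : Red H) {q : Quotient (st H)} {v : V} {φ : Dual (ZMod p) V}
    (h : TK (comp H q) v φ) : Quotient.mk (st H) (⟨(v, φ), h.mono (comp_le q)⟩ : Pr H) = q := by
  by_contra hne
  set a : Pr H := ⟨(v, φ), h.mono (comp_le q)⟩ with ha
  obtain ⟨g, hg, hg2⟩ := h.2.2.2
  have hg3 : ∀ x, g x = x + φ x • v := hg2
  have hg4 : g ∈ comp H (Quotient.mk (st H) a) := mem_comp a hg3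
  have hcen : ∀ k ∈ H, g * k = k * g := by
    intro k hk
    have h1 : ⨆ q, comp H q ≤ Subgroup.centralizer ({g} : Set (V ≃ₗ[ZMod p] V)) := by
      refine iSup_le fun q' => ?_
      intro k hk
      rw [Subgroup.mem_centralizer_iff]
      rintro _ rfl
      by_cases h2 : q' = q
      · rw [h2] at hk
        exact comp_comm hne hg4 hk
      · exact comp_comm (fun h => h2 h.symm) hg hk
    exact Subgroup.mem_centralizer_iff.1 (h1 (le_sup hG hk)) g rfl
  have h1 : Subgroup.zpowers g = ⊥ := by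
    refine hR _ (by rw [Subgroup.zpowers_le]; exact comp_le q hg) ?_ ?_
    · rintro k hk _ ⟨n, rfl⟩
      change k * g ^ n * k⁻¹ ∈ _
      have h2 : Commute k g := (hcen k hk).symm
      rw [(h2.zpow_right n).eq, mul_inv_cancel_right]
      exact ⟨n, rfl⟩
    · rintro _ ⟨n, rfl⟩
      change (g ^ n) ^ p = 1
      rw [← zpow_natCast, zpow_comm, zpow_natCast, trans_pow h.2.2.1 hg3, one_zpow]
  rw [Subgroup.zpowers_eq_bot] at h1
  exact ne_one h.1 h.2.1 hg3 h1

theorem gen_comp (q : Quotient (st H)) : Gen (comp H q) := by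
  refine (Subgroup.closure_le _).2 ?_
  rintro g ⟨a, rfl, hg⟩
  exact Subgroup.subset_closure ⟨a.1.1, a.1.2, TK_comp a, hg⟩

theorem red_comp (hG : Gen H) (hR : Red H) (q : Quotient (st H)) : Red (comp H q) := by
  intro Q hQ h1 h2
  exact hR Q (hQ.trans (comp_le q)) (norm hG q Q hQ h1) h2

theorem conn_comp (hG : Gen H) (hR : Red H) (q : Quotient (st H)) : Conn (comp H q) := by
  intro P hP ⟨v0, φ0, h0, hP0⟩ v φ h
  have h1 := comp_eq hG hR h0
  have h2 := comp_eq hG hR h
  have h3 := Quotient.exact (h1.trans h2.symm)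
  have key : ∀ a b : Pr H, Relation.EqvGen (adj H) a b → Quotient.mk (st H) a = q →
      (P a.1.1 a.1.2 ↔ P b.1.1 b.1.2) := by
    intro a b hab
    induction hab with
    | rel a b hab =>
      intro ha
      have hb : Quotient.mk (st H) b = q := by
        rw [← ha]
        exact (Quotient.sound (Relation.EqvGen.rel _ _ hab)).symm
      have hTa := TK_comp a
      have hTb := TK_comp b
      rw [ha] at hTa
      rw [hb] at hTb
      exact ⟨fun h => hP _ _ _ _ hTa hTb h hab, fun h => hP _ _ _ _ hTb hTa h hab.symm⟩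
    | refl a => intro _; rfl
    | symm a b hab ih =>
      intro hb
      have ha : Quotient.mk (st H) a = q := by
        rw [← hb]
        exact Quotient.sound hab
      exact (ih ha).symm
    | trans a b c hab hbc ih1 ih2 =>
      intro ha
      have hb : Quotient.mk (st H) b = q := by
        rw [← ha]
        exact (Quotient.sound hab).symm
      exact (ih1 ha).trans (ih2 hb)
  exact (key _ _ h3 h1).1 hP0

theorem nonempty_comp (q : Quotient (st H)) : ∃ v φ, TK (comp H q) v φ := by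
  obtain ⟨a, rfl⟩ := Quotient.exists_rep q
  exact ⟨_, _, TK_comp a⟩

/-- the centres space of a component -/
def Wq (q : Quotient (st H)) : Submodule (ZMod p) V := Sys.W (F := ZMod p) (TK (comp H q))

def Rq (q : Quotient (st H)) : Submodule (ZMod p) V := Sys.R (Dual.eval (ZMod p) V) (TK (comp H q))

theorem Wq_le_Rq (hG : Gen H) (hR : Red H) {q q' : Quotient (st H)} (h : q ≠ q') : Wq q ≤ Rq q' := by
  refine Submodule.span_le.2 ?_
  rintro v ⟨φ, hv⟩ w ψ hw
  have h1 := comp_eq hG hR hv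
  have h2 := comp_eq hG hR hw
  exact (perp (a := (⟨(v, φ), hv.mono (comp_le q)⟩ : Pr H)) (b := (⟨(w, ψ), hw.mono (comp_le q')⟩ : Pr H))
    (by rw [h1, h2]; exact h)).2

theorem stab_W (hG : Gen H) (hR : Red H) (q : Quotient (st H)) {k : V ≃ₗ[ZMod p] V} (hk : k ∈ H) {x : V}
    (hx : x ∈ Wq q) : k x ∈ Wq q := by
  refine hG.stable (X := Wq q) ?_ hk hx
  intro v φ h
  by_cases h1 : Quotient.mk (st H) (⟨(v, φ), h⟩ : Pr H) = q
  · left
    refine Submodule.subset_span ⟨φ, ?_⟩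
    have := TK_comp (⟨(v, φ), h⟩ : Pr H)
    rwa [h1] at this
  · right
    intro x hx
    have h2 := Wq_le_Rq hG hR (fun h' => h1 h'.symm) hx
    exact h2 v φ (TK_comp (⟨(v, φ), h⟩ : Pr H))

theorem stab_R (hG : Gen H) {k : V ≃ₗ[ZMod p] V} (hk : k ∈ H) {x : V}
    (hx : x ∈ ⨅ q : Quotient (st H), Rq q) : k x ∈ ⨅ q : Quotient (st H), Rq q := by
  refine hG.stable (X := ⨅ q : Quotient (st H), Rq q) ?_ hk hx
  intro v φ h
  right
  intro x hx
  rw [Submodule.mem_iInf] at hx
  exact hx (Quotient.mk (st H) (⟨(v, φ), h⟩ : Pr H)) v φ (TK_comp (⟨(v, φ), h⟩ : Pr H))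

end Cfsg.Agent.H13.McL
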