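import Mathlib
import Cfsg.Prelude.Def_Solvable
import Cfsg.Agent.H13_McL6

/-! McLaughlin transvection groups: assembly. -/

namespace Cfsg.Agent.H13.McL

open Module

variable {p : ℕ} [Fact p.Prime] {V : Type*} [AddCommGroup V] [Module (ZMod p) V]

theorem red_of_core {H : Subgroup (V ≃ₗ[ZMod p] V)} (hOp : Cfsg.pCore p ↥H = ⊥) : Red H := by
  intro Q hQ h1 h2
  have hn : (Q.subgroupOf H).Normal := ⟨fun x hx g => by
    rw [Subgroup.mem_subgroupOf] at hx ⊢
    exact h1 g.1 g.2 x.1 hx⟩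
  have hp : IsPGroup p (Q.subgroupOf H) := by
    intro x
    refine ⟨1, ?_⟩
    rw [pow_one]
    apply Subtype.ext
    apply Subtype.ext
    exact h2 x.1.1 (Subgroup.mem_subgroupOf.1 x.2)
  have h3 : Q.subgroupOf H ≤ Cfsg.pCore p ↥H := le_sSup ⟨hn, hp⟩
  rw [hOp, le_bot_iff, Subgroup.subgroupOf_eq_bot] at h3
  rw [eq_bot_iff]
  intro x hx
  have := h3.le_bot ⟨hx, hQ hx⟩
  exact this

theorem trans_of [Finite V] {H : Subgroup (V ≃ₗ[ZMod p] V)} {t : V ≃ₗ[ZMod p] V} (ht : t ∈ H)
    (h1 : orderOf t = p)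
    (h2 : finrank (ZMod p) ↥(LinearMap.ker ((t : V →ₗ[ZMod p] V) - LinearMap.id)) + 1 = finrank (ZMod p) V) :
    ∃ v φ, TK H v φ ∧ ∀ x, t x = x + φ x • v := by
  set N : V →ₗ[ZMod p] V := (t : V →ₗ[ZMod p] V) - LinearMap.id with hN
  have hNx : ∀ x, t x = x + N x := by
    intro x
    rw [hN, LinearMap.sub_apply, LinearMap.id_apply]
    simp
  have h3 := LinearMap.finrank_range_add_finrank_ker N
  have h4 : finrank (ZMod p) (LinearMap.range N) = 1 := by omega
  obtain ⟨⟨v, hv⟩, hv0, hv1⟩ := finrank_eq_one_iff'.1 h4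
  have hv00 : v ≠ 0 := fun h => hv0 (Subtype.ext h)
  obtain ⟨ξ, hξ⟩ : ∃ ξ : Dual (ZMod p) V, ξ v ≠ 0 := by
    by_contra hcon
    push Not at hcon
    exact hv00 ((Module.forall_dual_apply_eq_zero_iff (ZMod p) v).1 hcon)
  let φ : Dual (ZMod p) V := (ξ v)⁻¹ • (ξ.comp N)
  have hφ : ∀ x, N x = φ x • v := by
    intro x
    obtain ⟨c, hc⟩ := hv1 ⟨N x, ⟨x, rfl⟩⟩
    have hc2 : c • v = N x := congrArg Subtype.val hc
    change N x = ((ξ v)⁻¹ * ξ (N x)) • v
    rw [← hc2, map_smul, smul_eq_mul, mul_comm c, inv_mul_cancel_left₀ hξ]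
  have hφ0 : φ ≠ 0 := by
    intro h
    obtain ⟨x, hx⟩ := hv
    apply hv00
    rw [← hx, hφ, h, LinearMap.zero_apply, zero_smul]
  have ht2 : ∀ x, t x = x + φ x • v := by
    intro x
    rw [hNx, hφ]
  have hφv : φ v = 0 := by
    have h5 : ∀ n : ℕ, (t ^ n) v = (1 + φ v) ^ n • v := by
      intro n
      induction n with
      | zero => rw [pow_zero, pow_zero, one_smul]; rfl
      | succ n ih =>
        rw [pow_succ', LinearEquiv.mul_apply, ih, map_smul, ht2, pow_succ, mul_smul, add_smul, one_smul]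
    have h6 := h5 p
    have h7 : t ^ p = 1 := orderOf_dvd_iff_pow_eq_one.1 (dvd_of_eq h1)
    rw [h7, ZMod.pow_card] at h6
    have h8 : (1 : V ≃ₗ[ZMod p] V) v = v := rfl
    rw [h8, add_smul, one_smul] at h6
    exact (smul_eq_zero.1 (left_eq_add.1 h6)).resolve_right hv00
  exact ⟨v, φ, ⟨hv00, hφ0, hφv, t, ht, ht2⟩, ht2⟩

theorem main [Finite V] (h20 : (2 : ZMod p) ≠ 0) {H : Subgroup (V ≃ₗ[ZMod p] V)} (hG : Gen H) (hR : Red H)
    (hne : Nonempty (Pr H)) :
    ∃ (n : ℕ) (W : Fin (n + 1) → Submodule (ZMod p) V) (K : Fin n → Subgroup (V ≃ₗ[ZMod p] V)),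
      1 ≤ n ∧ DirectSum.IsInternal W ∧
      (∀ h ∈ H, ∀ i, (W i).map (h : V →ₗ[ZMod p] V) = W i) ∧
      (∀ j, K j ≤ H ∧ ((K j).subgroupOf H).Normal) ∧ ⨆ j, K j = H ∧
      (∀ j, K j ⊓ (⨆ j' ∈ {j' : Fin n | j' ≠ j}, K j') = ⊥) ∧
      (∀ j j', j ≠ j' → ∀ a ∈ K j, ∀ b ∈ K j', a * b = b * a) ∧
      (∀ j, ∀ h ∈ K j, ∀ i : Fin (n + 1), i ≠ j.succ → ∀ v ∈ W i, h v = v) ∧
      (∀ j, ∃ ρ : ↥(K j) →* (↥(W j.succ) ≃ₗ[ZMod p] ↥(W j.succ)),
        (∀ (h : ↥(K j)) (v : ↥(W j.succ)), ((ρ h v : ↥(W j.succ)) : V) = (h : V ≃ₗ[ZMod p] V) (v : V)) ∧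
        ((ρ.range : Set (↥(W j.succ) ≃ₗ[ZMod p] ↥(W j.succ))) =
            {f : ↥(W j.succ) ≃ₗ[ZMod p] ↥(W j.succ) | LinearMap.det (f : ↥(W j.succ) →ₗ[ZMod p] ↥(W j.succ)) = 1} ∨
          ∃ B : LinearMap.BilinForm (ZMod p) ↥(W j.succ), B.IsAlt ∧ B.Nondegenerate ∧
            (ρ.range : Set (↥(W j.succ) ≃ₗ[ZMod p] ↥(W j.succ))) = {f : ↥(W j.succ) ≃ₗ[ZMod p] ↥(W j.succ) | ∀ x y, B (f x) (f y) = B x y})) := by
  classical
  have : Finite (Dual (ZMod p) V) :=
    Finite.of_injective (fun f : Dual (ZMod p) V => (f : V → ZMod p)) DFunLike.coe_injective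
  have : Finite (Pr H) := Subtype.finite
  have : Finite (Quotient (st H)) := Quotient.finite _
  let n := Nat.card (Quotient (st H))
  let e : Fin n ≃ Quotient (st H) := (Finite.equivFin (Quotient (st H))).symm
  have hS : ∀ q : Quotient (st H), Sys (Dual.eval (ZMod p) V) (TK (comp H q)) := fun q =>
    sysK h20 (gen_comp q) (red_comp hG hR q) (conn_comp hG hR q)
  have hcompl : ∀ q : Quotient (st H), IsCompl (Wq q) (Rq q) := fun q => (hS q).isCompl
  let W : Fin (n + 1) → Submodule (ZMod p) V :=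
    Fin.cons (⨅ q : Quotient (st H), Rq q) (fun j => Wq (e j))
  have hW0 : W 0 = ⨅ q : Quotient (st H), Rq q := rfl
  have hWs : ∀ j : Fin n, W j.succ = Wq (e j) := fun _ => rfl
  let K : Fin n → Subgroup (V ≃ₗ[ZMod p] V) := fun j => comp H (e j)
  have hWR : ∀ (j : Fin n) (i : Fin (n + 1)), i ≠ j.succ → W i ≤ Rq (e j) := by
    intro j i hij
    rcases Fin.eq_zero_or_eq_succ i with rfl | ⟨k, rfl⟩
    · rw [hW0]; exact iInf_le _ _
    · rw [hWs]
      refine Wq_le_Rq hG hR ?_
      intro h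
      exact hij (by rw [e.injective h])
  have hfix : ∀ (j : Fin n), ∀ h ∈ K j, ∀ x ∈ Rq (e j), h x = x := fun j h hh x hx =>
    fixR (gen_comp (e j)) h hh x hx
  have hstab : ∀ k ∈ H, ∀ i, ∀ x ∈ W i, k x ∈ W i := by
    intro k hk i x hx
    rcases Fin.eq_zero_or_eq_succ i with rfl | ⟨j, rfl⟩
    · exact stab_R hG hk hx
    · exact stab_W hG hR (e j) hk hx
  refine ⟨n, W, K, ?_, ?_, ?_, ?_, ?_, ?_, ?_, ?_, ?_⟩
  · have : Nonempty (Quotient (st H)) := ⟨Quotient.mk _ hne.some⟩
    exact Nat.card_pos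
  · rw [DirectSum.isInternal_submodule_iff_iSupIndep_and_iSup_eq_top]
    constructor
    · rw [iSupIndep_iff_finsetSum_eq_zero_imp_eq_zero]
      intro s v hv hsum
      have key : ∀ j : Fin n, j.succ ∈ s → v j.succ = 0 := by
        intro j hj
        have h1 := congrArg ((Wq (e j)).projection (Rq (e j)) (hcompl (e j))) hsum
        rw [map_sum, map_zero, Finset.sum_eq_single j.succ] at h1
        · have hvj : v j.succ ∈ Wq (e j) := hv _ hj
          rwa [Submodule.projection_apply_of_mem_left _ hvj] at h1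
        · intro i hi hij
          exact (Submodule.projection_apply_eq_zero_iff _).2 (hWR j i hij (hv i hi))
        · intro h; exact absurd hj h
      intro i hi
      rcases Fin.eq_zero_or_eq_succ i with rfl | ⟨j, rfl⟩
      · rw [Finset.sum_eq_single 0] at hsum
        · exact hsum
        · intro i hi hi0
          rcases Fin.eq_zero_or_eq_succ i with rfl | ⟨j, rfl⟩
          · exact absurd rfl hi0
          · exact key j hi
        · intro h; exact absurd hi h
      · exact key j hi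
    · rw [eq_top_iff]
      intro x _
      set y : Fin n → V := fun j => (Wq (e j)).projection (Rq (e j)) (hcompl (e j)) x with hy
      have hyW : ∀ j, y j ∈ W j.succ := fun j => Submodule.projection_apply_mem _ _
      have h0 : x - ∑ j, y j ∈ W 0 := by
        rw [hW0, Submodule.mem_iInf]
        intro q
        obtain ⟨i, rfl⟩ := e.surjective q
        rw [← Submodule.projection_apply_eq_zero_iff (hcompl (e i)), map_sub, map_sum,
          Finset.sum_eq_single i]
        · have hyi : y i ∈ Wq (e i) := hyW i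
          rw [Submodule.projection_apply_of_mem_left _ hyi, sub_self]
        · intro j _ hji
          refine (Submodule.projection_apply_eq_zero_iff _).2 (hWR i j.succ ?_ (hyW j))
          intro h
          exact hji (Fin.succ_injective _ h)
        · simp
      have h1 : x = (x - ∑ j, y j) + ∑ j, y j := by abel
      rw [h1]
      refine Submodule.add_mem _ (Submodule.mem_iSup_of_mem 0 h0) ?_
      exact Submodule.sum_mem _ (fun j _ => Submodule.mem_iSup_of_mem j.succ (hyW j))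
  · intro h hh i
    apply le_antisymm
    · rintro _ ⟨x, hx, rfl⟩
      exact hstab h hh i x hx
    · intro x hx
      refine ⟨h⁻¹ x, hstab _ (inv_mem hh) i x hx, ?_⟩
      change h (h⁻¹ x) = x
      rw [← LinearEquiv.mul_apply, mul_inv_cancel]; rfl
  · intro j
    refine ⟨comp_le _, ⟨fun x hx g => ?_⟩⟩
    rw [Subgroup.mem_subgroupOf] at hx ⊢
    exact norm hG (e j) (comp H (e j)) le_rfl
      (fun k hk x hx => mul_mem (mul_mem hk hx) (inv_mem hk)) g.1 g.2 x.1 hx
  · apply le_antisymm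
    · exact iSup_le fun j => comp_le _
    · refine (le_sup hG).trans (iSup_le fun q => ?_)
      obtain ⟨j, rfl⟩ := e.surjective q
      exact le_iSup K j
  · intro j
    rw [eq_bot_iff]
    rintro g ⟨hg1, hg2⟩
    have hgW : ∀ x ∈ Wq (e j), g x = x := by
      let Fx : Subgroup (V ≃ₗ[ZMod p] V) :=
        { carrier := {g | ∀ x ∈ Wq (e j), g x = x}
          mul_mem' := by
            intro a b ha hb x hx
            rw [LinearEquiv.mul_apply, hb x hx, ha x hx]
          one_mem' := fun x _ => rfl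
          inv_mem' := by
            intro a ha x hx
            apply a.injective
            rw [← LinearEquiv.mul_apply, mul_inv_cancel, ha x hx]; rfl }
      have hle : (⨆ j' ∈ {j' : Fin n | j' ≠ j}, K j') ≤ Fx := by
        refine iSup₂_le fun j' hj' => ?_
        intro g hg x hx
        have hx' : x ∈ W j.succ := hx
        refine hfix j' g hg x (hWR j' j.succ ?_ hx')
        intro h
        exact hj' (Fin.succ_injective _ h).symm
      exact hle hg2
    rw [Subgroup.mem_bot]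
    ext x
    have h1 : x ∈ Wq (e j) ⊔ Rq (e j) := by rw [(hcompl (e j)).sup_eq_top]; trivial
    obtain ⟨a, ha, b, hb, rfl⟩ := Submodule.mem_sup.1 h1
    rw [map_add, hgW a ha, hfix j g hg1 b hb]
    rfl
  · intro j j' hjj a ha b hb
    exact comp_comm (fun h => hjj (e.injective h)) ha hb
  · intro j h hh i hij v hv
    exact hfix j h hh v (hWR j i hij hv)
  · intro j
    exact piece h20 (gen_comp (e j)) (red_comp hG hR (e j)) (conn_comp hG hR (e j)) (nonempty_comp (e j))

theorem final {p : ℕ} [Fact p.Prime] (hp : Odd p) {V : Type*} [AddCommGroup V] [Module (ZMod p) V] [Finite V]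
    (H : Subgroup (V ≃ₗ[ZMod p] V)) (T : Set (V ≃ₗ[ZMod p] V)) (hHT : H = Subgroup.closure T)
    (hT : ∀ t ∈ T, orderOf t = p ∧
      Module.finrank (ZMod p) ↥(LinearMap.ker ((t : V →ₗ[ZMod p] V) - LinearMap.id)) + 1 =
        Module.finrank (ZMod p) V)
    (hOp : Cfsg.pCore p ↥H = ⊥) :
    ∃ (n : ℕ) (W : Fin (n + 1) → Submodule (ZMod p) V) (K : Fin n → Subgroup (V ≃ₗ[ZMod p] V)),
      1 ≤ n ∧ DirectSum.IsInternal W ∧
      (∀ h ∈ H, ∀ i, (W i).map (h : V →ₗ[ZMod p] V) = W i) ∧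
      (∀ j, K j ≤ H ∧ ((K j).subgroupOf H).Normal) ∧ ⨆ j, K j = H ∧
      (∀ j, K j ⊓ (⨆ j' ∈ {j' : Fin n | j' ≠ j}, K j') = ⊥) ∧
      (∀ j j', j ≠ j' → ∀ a ∈ K j, ∀ b ∈ K j', a * b = b * a) ∧
      (∀ j, ∀ h ∈ K j, ∀ i : Fin (n + 1), i ≠ j.succ → ∀ v ∈ W i, h v = v) ∧
      (∀ j, ∃ ρ : ↥(K j) →* (↥(W j.succ) ≃ₗ[ZMod p] ↥(W j.succ)),
        (∀ (h : ↥(K j)) (v : ↥(W j.succ)), ((ρ h v : ↥(W j.succ)) : V) = (h : V ≃ₗ[ZMod p] V) (v : V)) ∧
        ((ρ.range : Set (↥(W j.succ) ≃ₗ[ZMod p] ↥(W j.succ))) =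
            {f : ↥(W j.succ) ≃ₗ[ZMod p] ↥(W j.succ) | LinearMap.det (f : ↥(W j.succ) →ₗ[ZMod p] ↥(W j.succ)) = 1} ∨
          ∃ B : LinearMap.BilinForm (ZMod p) ↥(W j.succ), B.IsAlt ∧ B.Nondegenerate ∧
            (ρ.range : Set (↥(W j.succ) ≃ₗ[ZMod p] ↥(W j.succ))) = {f : ↥(W j.succ) ≃ₗ[ZMod p] ↥(W j.succ) | ∀ x y, B (f x) (f y) = B x y})) := by
  have h20 : (2 : ZMod p) ≠ 0 := by
    intro h
    have h1 : ((2 : ℕ) : ZMod p) = 0 := by exact_mod_cast h
    rw [ZMod.natCast_eq_zero_iff] at h1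
    have h2 := (Nat.prime_dvd_prime_iff_eq (Fact.out : p.Prime) Nat.prime_two).1 h1
    rw [h2] at hp
    exact absurd hp (by decide)
  have hG : Gen H := by
    intro h hh
    have h1 : T ⊆ {g : V ≃ₗ[ZMod p] V | ∃ v φ, TK H v φ ∧ ∀ x, g x = x + φ x • v} := by
      intro t ht
      have htH : t ∈ H := by rw [hHT]; exact Subgroup.subset_closure ht
      exact trans_of htH (hT t ht).1 (hT t ht).2
    rw [hHT] at hh
    exact Subgroup.closure_mono h1 hh
  have hR := red_of_core hOp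
  by_cases hne : Nonempty (Pr H)
  · exact main h20 hG hR hne
  · have hH : H = ⊥ := by
      rw [eq_bot_iff]
      refine hG.trans ((Subgroup.closure_le _).2 ?_)
      rintro g ⟨v, φ, h, -⟩
      exact absurd ⟨⟨(v, φ), h⟩⟩ hne
    subst hH
    refine ⟨1, ![⊤, ⊥], fun _ => ⊥, le_rfl, ?_, ?_, ?_, ?_, ?_, ?_, ?_, ?_⟩
    · rw [DirectSum.isInternal_submodule_iff_iSupIndep_and_iSup_eq_top]
      constructor
      · rw [iSupIndep_iff_finsetSum_eq_zero_imp_eq_zero]
        intro s v hv hsum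
        have h1 : ∀ i ∈ s, i ≠ 0 → v i = 0 := by
          intro i hi hi0
          have h2 := hv i hi
          fin_cases i
          · exact absurd rfl hi0
          · simpa using h2
        intro i hi
        by_cases hi0 : i = 0
        · subst hi0
          rw [Finset.sum_eq_single 0] at hsum
          · exact hsum
          · exact h1
          · intro h; exact absurd hi h
        · exact h1 i hi hi0
      · rw [eq_top_iff]
        exact le_iSup (![⊤, ⊥] : Fin 2 → Submodule (ZMod p) V) 0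
    · intro h hh i
      rw [Subgroup.mem_bot] at hh
      subst hh
      change (![⊤, ⊥] i : Submodule (ZMod p) V).map LinearMap.id = _
      rw [Submodule.map_id]
    · intro j
      refine ⟨le_rfl, ?_⟩
      rw [Subgroup.bot_subgroupOf]
      infer_instance
    · exact iSup_const
    · intro j; exact bot_inf_eq _
    · intro j j' _ a ha b hb
      rw [Subgroup.mem_bot] at ha hb
      rw [ha, hb]
    · intro j h hh i _ v _
      rw [Subgroup.mem_bot] at hh
      rw [hh]; rfl
    · intro j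
      have hj : j = 0 := Subsingleton.elim _ _
      subst hj
      have hsub : ∀ x y : ↥(![⊤, ⊥] (Fin.succ 0 : Fin 2) : Submodule (ZMod p) V), x = y := by
        intro x y
        have h1 : ∀ z ∈ (![⊤, ⊥] (Fin.succ 0 : Fin 2) : Submodule (ZMod p) V), z = 0 := by
          intro z hz
          have : z ∈ (⊥ : Submodule (ZMod p) V) := hz
          simpa using this
        exact Subtype.ext ((h1 x x.2).trans (h1 y y.2).symm)
      refine ⟨1, ?_, Or.inl ?_⟩
      · intro h v
        have : h = 1 := Subsingleton.elim _ _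
        rw [this]; rfl
      · ext f
        have hf : f = 1 := by
          ext x
          exact congrArg Subtype.val (hsub _ _)
        constructor
        · intro _
          rw [hf]
          change LinearMap.det LinearMap.id = 1
          exact LinearMap.det_id
        · intro _
          exact ⟨1, hf.symm⟩

end Cfsg.Agent.H13.McL
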