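import Cfsg.Agent.H23_Omega
import Cfsg.Agent.H2_Fusion3
import Cfsg.Agent.H1_Coprime2
import Cfsg.Agent.H13_Syl

/-!
Minimal subgroups on which a `p'`-element acts nontrivially.
-/

set_option autoImplicit false

namespace Cfsg.Agent.H13.Min

open Subgroup Cfsg.Agent.H13.Syl
open scoped commutatorElement

variable {G : Type*} [Group G] [Finite G] {p : ℕ} [hp : Fact p.Prime]

theorem exists_min {Q : Subgroup G} (hQ : IsPGroup p Q) {g : G} (hg : g ∈ normalizer (Q : Set G))
    (hgp : (orderOf g).Coprime p) (hgC : g ∉ centralizer (Q : Set G)) :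
    ∃ U ≤ Q, U ≠ ⊥ ∧ zpowers g ≤ normalizer (U : Set G) ∧ ⁅U, zpowers g⁆ = U ∧
      closure {x : G | x ∈ U ∧ (x ^ p = 1 ∨ (p = 2 ∧ x ^ 4 = 1))} = U ∧
      ∀ V ≤ U, g ∈ normalizer (V : Set G) → V ≠ U → g ∈ centralizer (V : Set G) := by
  classical
  have hfin : Set.Finite {U : Subgroup G | U ≤ Q ∧ g ∈ normalizer (U : Set G) ∧ g ∉ centralizer (U : Set G)} :=
    Set.toFinite _
  obtain ⟨U, hU⟩ := hfin.exists_minimal ⟨Q, le_rfl, hg, hgC⟩
  obtain ⟨⟨hUQ, hUg, hUC⟩, hmin⟩ := hU
  have hUp : IsPGroup p U := hQ.to_le hUQ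
  have hA : zpowers g ≤ normalizer (U : Set G) := by rw [zpowers_le]; exact hUg
  have hcopA : (Nat.card (zpowers g)).Coprime p := by rw [Nat.card_zpowers]; exact hgp
  have hcop : (Nat.card (zpowers g)).Coprime (Nat.card U) := by
    obtain ⟨n, hn⟩ := IsPGroup.iff_card.1 hUp
    rw [hn]; exact Nat.Coprime.pow_right n hcopA
  have hsolv : Group.IsSolvable (zpowers g) := Group.isSolvable_of_comm mul_comm'
  have hprop : ∀ V ≤ U, g ∈ normalizer (V : Set G) → V ≠ U → g ∈ centralizer (V : Set G) := by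
    intro V hV hVg hVU
    by_contra h
    exact hVU (le_antisymm hV (hmin ⟨hV.trans hUQ, hVg, h⟩ hV))
  refine ⟨U, hUQ, ?_, hA, ?_, ?_, hprop⟩
  · intro h
    apply hUC
    rw [h, mem_centralizer_iff]
    intro x hx
    have : x = 1 := hx
    rw [this, one_mul, mul_one]
  · by_contra hne
    have hle : ⁅U, zpowers g⁆ ≤ U := H1.Coprime.commutator_le_of_le_normalizer hA
    have h1 : g ∈ normalizer ((⁅U, zpowers g⁆ : Subgroup G) : Set G) :=
      H1.Coprime.le_normalizer_commutator_of hA le_normalizer (mem_zpowers g)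
    have h2 := hprop _ hle h1 hne
    have h3 : ⁅⁅U, zpowers g⁆, zpowers g⁆ = ⊥ := by
      rw [commutator_eq_bot_iff_le_centralizer, le_centralizer_iff, zpowers_le]
      exact h2
    rw [H1.Coprime.commutator_commutator_eq _ _ hA hcop (Or.inl hsolv), commutator_eq_bot_iff_le_centralizer,
      le_centralizer_iff, zpowers_le] at h3
    exact hUC h3
  · by_contra hne
    have hle : closure {x : G | x ∈ U ∧ (x ^ p = 1 ∨ (p = 2 ∧ x ^ 4 = 1))} ≤ U := by
      rw [closure_le]; exact fun x hx => hx.1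
    have h1 : g ∈ normalizer ((closure {x : G | x ∈ U ∧ (x ^ p = 1 ∨ (p = 2 ∧ x ^ 4 = 1))} : Subgroup G) : Set G) := by
      rw [mem_normalizer_iff_cj]
      apply Subgroup.eq_of_le_of_card_ge _ (by rw [card_cj])
      rw [cj_le_iff, closure_le]
      rintro x ⟨hxU, hx⟩
      rw [SetLike.mem_coe, mem_cj, inv_inv]
      apply Subgroup.subset_closure
      refine ⟨(mem_normalizer_iff.1 hUg x).1 hxU, ?_⟩
      rcases hx with hx | ⟨h2, hx⟩
      · left; rw [conj_pow, hx, mul_one, mul_inv_cancel]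
      · right; exact ⟨h2, by rw [conj_pow, hx, mul_one, mul_inv_cancel]⟩
    have h2 := hprop _ hle h1 hne
    apply hUC
    have h3 := H23.Omega.omega hA hUp hcopA (by
      intro x hx hx' a ha
      have h4 : zpowers g ≤ centralizer ((closure {x : G | x ∈ U ∧ (x ^ p = 1 ∨ (p = 2 ∧ x ^ 4 = 1))} : Subgroup G) : Set G) := by
        rw [zpowers_le]; exact h2
      exact (mem_centralizer_iff.1 (h4 ha) x (Subgroup.subset_closure ⟨hx, hx'⟩)).symm)
    exact h3 (mem_zpowers g)

end Cfsg.Agent.H13.Min
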