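import Mathlib
import Cfsg.Agent.H9_BrCor

/-!
# Sylow subgroup of prime order which is its own centraliser
-/

set_option autoImplicit false

open scoped ComplexConjugate

namespace Cfsg.Agent.H9.BrSC

open Cfsg Cfsg.Agent.H3.CharIrr Cfsg.Agent.H3.CharComplete Cfsg.Agent.H10.Char Cfsg.Agent.H10.BlockKer
  Cfsg.Agent.H9.BrVec Cfsg.Agent.H9.BrMain Cfsg.Agent.H9.BrThm Cfsg.Agent.H9.BrCor

variable {G : Type*} [Group G] [Fintype G] {p : ℕ} [hp : Fact p.Prime] {M : Ideal AlgInt} {z : G}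

theorem centralizer_zp (hz : orderOf z = p) (hC : ∀ y : G, y * z = z * y → y ∈ Subgroup.zpowers z) {i : ZMod p} (hi : i ≠ 0) :
    Subgroup.centralizer ({zp p z i} : Set G) = Subgroup.zpowers z := by
  have hzp : z ^ p = 1 := by rw [← hz]; exact pow_orderOf_eq_one z
  ext y
  rw [Subgroup.mem_centralizer_singleton_iff]
  constructor
  · intro h
    apply hC
    have h1 : z = (zp p z i) ^ (i⁻¹).val := by
      rw [← zp_mul hzp, mul_inv_cancel₀ hi, zp_one]
    have h2 : Commute y (zp p z i) := h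
    have h3 := h2.pow_right (i⁻¹).val
    rw [← h1] at h3
    exact h3
  · intro h
    obtain ⟨j, rfl⟩ := (mem_zpowers_iff hz y).1 h
    rw [← zp_add hzp, ← zp_add hzp, add_comm]

/-- outside the principal block the characters vanish on `P` -/
theorem char_zero (hM : IsPModular p M) (hz : orderOf z = p) (hsyl : ¬ p ∣ (Subgroup.zpowers z).index)
    (hC : ∀ y : G, y * z = z * y → y ∈ Subgroup.zpowers z) {χ : IrrCharacter G} (hχ : χ ∉ principalBlock M G)
    {i : ZMod p} (hi : i ≠ 0) : (χ : G → ℂ) (zp p z i) = 0 := by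
  classical
  haveI : Fintype (IrrCharacter G) := Fintype.ofFinite _
  have h1 := kernel hM hz hsyl i i hi hi
  rw [if_pos ⟨1, one_mem _, by rw [Units.val_one, one_mul]⟩] at h1
  have h2 := orth2 (zp p z i) (zp p z i)
  rw [if_pos (IsConj.refl _), centralizer_zp hz hC hi, Nat.card_zpowers, hz] at h2
  have h3 : ∑ ψ : IrrCharacter G, (if ψ ∈ principalBlock M G then 0 else (ψ : G → ℂ) (zp p z i) * conj ((ψ : G → ℂ) (zp p z i))) = 0 := by
    have h4 : ∀ ψ : IrrCharacter G, (if ψ ∈ principalBlock M G then 0 else (ψ : G → ℂ) (zp p z i) * conj ((ψ : G → ℂ) (zp p z i))) =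
        (ψ : G → ℂ) (zp p z i) * conj ((ψ : G → ℂ) (zp p z i)) -
        (if ψ ∈ principalBlock M G then (ψ : G → ℂ) (zp p z i) * conj ((ψ : G → ℂ) (zp p z i)) else 0) := by
      intro ψ
      split_ifs <;> ring
    rw [Finset.sum_congr rfl fun ψ _ => h4 ψ, Finset.sum_sub_distrib, h1, h2, sub_self]
  have h5 : ∀ ψ : IrrCharacter G, (if ψ ∈ principalBlock M G then 0 else (ψ : G → ℂ) (zp p z i) * conj ((ψ : G → ℂ) (zp p z i))) =
      (((if ψ ∈ principalBlock M G then 0 else ‖(ψ : G → ℂ) (zp p z i)‖ ^ 2 : ℝ)) : ℂ) := by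
    intro ψ
    split_ifs
    · simp
    · rw [Complex.mul_conj, Complex.normSq_eq_norm_sq]
  rw [Finset.sum_congr rfl fun ψ _ => h5 ψ, ← Complex.ofReal_sum, Complex.ofReal_eq_zero] at h3
  have h6 := (Finset.sum_eq_zero_iff_of_nonneg (fun ψ _ => by split_ifs <;> positivity)).1 h3 χ (Finset.mem_univ _)
  rw [if_neg hχ] at h6
  exact norm_eq_zero.1 (pow_eq_zero_iff two_ne_zero |>.1 h6)

theorem vv_zero_of_not_mem (hM : IsPModular p M) (hz : orderOf z = p) (hzp : z ^ p = 1) (hsyl : ¬ p ∣ (Subgroup.zpowers z).index)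
    (hC : ∀ y : G, y * z = z * y → y ∈ Subgroup.zpowers z) {χ : IrrCharacter G} (hχ : χ ∉ principalBlock M G)
    (a : ZMod p) : vv hzp χ a = 0 := by
  have h1 : (vv hzp χ a : ℂ) = 0 := by
    rw [vv_eq, Finset.sum_eq_zero, mul_zero]
    intro i _
    by_cases hi : i = 0
    · rw [hi, mul_zero, neg_zero, ee_zero, sub_self, mul_zero]
    · rw [char_zero hM hz hsyl hC hχ hi, zero_mul]
  exact_mod_cast h1

/-- the degree is the sum of the multiplicities -/
theorem deg_eq (hzp : z ^ p = 1) (χ : IrrCharacter G) : charDegree (χ : G → ℂ) = ∑ a : ZMod p, mu hzp χ a := by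
  have h := char_eq hzp χ 0
  rw [zp_zero, ← charDegree_eq χ.2] at h
  simp only [mul_zero, ee_zero, mul_one] at h
  exact_mod_cast h

/-- multiplicities of a sum -/
theorem sum_mult [Fintype (IrrCharacter G)] (hzp : z ^ p = 1) (n : IrrCharacter G → ℂ) (φ : G → ℂ) (hφ : ∀ g, φ g = ∑ χ : IrrCharacter G, n χ * (χ : G → ℂ) g)
    (a : ZMod p) : ∑ χ : IrrCharacter G, n χ * mu hzp χ a = (p : ℂ)⁻¹ * ∑ i : ZMod p, φ (zp p z i) * ee p (-(a * i)) := by
  simp only [mu_eq, hφ, Finset.sum_mul]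
  rw [Finset.sum_comm, Finset.mul_sum]
  apply Finset.sum_congr rfl
  intro χ _
  rw [Finset.mul_sum, Finset.mul_sum, Finset.mul_sum]
  apply Finset.sum_congr rfl
  intro i _
  ring

theorem mu_triv_zero (hzp : z ^ p = 1) : mu hzp (triv G) 0 = 1 := by
  have h1 : (mu hzp (triv G) 0 : ℂ) = 1 := by
    rw [mu_eq]
    simp only [triv_coe, one_mul, zero_mul, neg_zero, ee_zero]
    rw [Finset.sum_const, Finset.card_univ, ZMod.card, nsmul_eq_mul, mul_one, inv_mul_cancel₀ (p_ne (p := p))]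
  exact_mod_cast h1

theorem mu_triv_unit (hzp : z ^ p = 1) (a : (ZMod p)ˣ) : mu hzp (triv G) a = 0 := by
  have h1 := vv_triv (G := G) hzp a
  unfold vv at h1
  rw [mu_triv_zero] at h1
  omega

theorem deg_pos (hzp : z ^ p = 1) (χ : IrrCharacter G) : ∃ a : ZMod p, mu hzp χ a ≠ 0 := by
  by_contra hcon
  push Not at hcon
  have h1 := deg_eq hzp χ
  rw [Finset.sum_eq_zero (fun a _ => hcon a)] at h1
  have h2 := charDegree_eq χ.2
  rw [h1, Nat.cast_zero] at h2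
  exact IsIrr.one_ne_zero χ.2 h2.symm

/-- multiplicity data of the irreducible characters -/
structure Types (hz : orderOf z = p) (hzp : z ^ p = 1) where
  /-- sign -/
  ε : ℤ
  /-- exceptional characters -/
  L : (ZMod p)ˣ ⧸ (BrMain.om hz).range → IrrCharacter G
  hε : ε = 1 ∨ ε = -1
  inj : Function.Injective L
  on : ∀ j (a : (ZMod p)ˣ), (a : (ZMod p)ˣ ⧸ (BrMain.om hz).range) = j → vv hzp (L j) a = -ε
  off : ∀ j (a : (ZMod p)ˣ), (a : (ZMod p)ˣ ⧸ (BrMain.om hz).range) ≠ j → vv hzp (L j) a = 0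
  deg : ∀ j j', charDegree (L j : G → ℂ) = charDegree (L j' : G → ℂ)
  all : ∀ χ : IrrCharacter G, (∃ d : ℤ, (d = 1 ∨ d = -1) ∧ ∀ a : (ZMod p)ˣ, vv hzp χ a = d) ∨ (∃ j, L j = χ) ∨
    ∀ a : (ZMod p)ˣ, vv hzp χ a = 0

theorem types (hM : IsPModular p M) (hz : orderOf z = p) (hzp : z ^ p = 1) (hsyl : ¬ p ∣ (Subgroup.zpowers z).index)
    (hC : ∀ y : G, y * z = z * y → y ∈ Subgroup.zpowers z) : Nonempty (Types hz hzp) := by
  obtain ⟨X, Y, δ, ε, L, h1, h2, h3, h4, h5, h6, h7, h8, h9, h10, h11, h12⟩ := brauer hM hz hzp hsyl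
  refine ⟨⟨ε, L, h7, h8, h10, h11, ?_, ?_⟩⟩
  · intro j j'
    have e1 := h12 j 1 (by rw [orderOf_one]; exact fun h => hp.out.one_lt.ne' (Nat.dvd_one.1 h))
    have e2 := h12 j' 1 (by rw [orderOf_one]; exact fun h => hp.out.one_lt.ne' (Nat.dvd_one.1 h))
    have hε : (ε : ℂ) ≠ 0 := by
      rcases h7 with h | h <;> rw [h] <;> norm_num
    have e3 := mul_left_cancel₀ hε (e1.trans e2.symm)
    rw [← charDegree_eq (L j).2, ← charDegree_eq (L j').2] at e3
    exact_mod_cast e3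
  · intro χ
    by_cases hχ : χ ∈ principalBlock M G
    · rcases (h1 χ).1 hχ with h | h
      · left; exact ⟨δ χ, (h6 χ h).1, (h6 χ h).2⟩
      · right; left; exact (h9 χ).1 h
    · right; right
      intro a
      exact vv_zero_of_not_mem hM hz hzp hsyl hC hχ a

/-- a sum of naturals equal to one -/
theorem sum_eq_one {ι : Type*} [DecidableEq ι] {s : Finset ι} {f : ι → ℕ} (h : ∑ i ∈ s, f i = 1) :
    ∃ i ∈ s, f i = 1 ∧ ∀ j ∈ s, j ≠ i → f j = 0 := by
  have h1 : ∃ i ∈ s, f i ≠ 0 := by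
    by_contra hcon
    push Not at hcon
    rw [Finset.sum_eq_zero hcon] at h
    exact zero_ne_one h
  obtain ⟨i, hi, hfi⟩ := h1
  rw [← Finset.add_sum_erase _ _ hi] at h
  refine ⟨i, hi, by omega, ?_⟩
  have h2 : ∑ j ∈ s.erase i, f j = 0 := by omega
  intro j hj hji
  exact Finset.sum_eq_zero_iff.1 h2 j (Finset.mem_erase.2 ⟨hji, hj⟩)

/-- decomposition of a character whose restriction to `P` is twice the regular character -/
theorem decomp [Fintype (IrrCharacter G)] (hz : orderOf z = p) (hzp : z ^ p = 1) (Ty : Types hz hzp)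
    (hperf : ∀ χ : IrrCharacter G, charDegree (χ : G → ℂ) = 1 → χ = triv G)
    (m : IrrCharacter G → ℕ) (hm : ∀ a : ZMod p, ∑ χ, m χ * mu hzp χ a = 2) (hm1 : m (triv G) = 1) (hp2 : 2 < p) :
    (∑ χ, m χ ^ 2 = 2) ∨
    (∃ χ ψ : IrrCharacter G, χ ≠ triv G ∧ ψ ≠ triv G ∧ χ ≠ ψ ∧ m χ = 1 ∧ m ψ = 1 ∧ charDegree (χ : G → ℂ) = p ∧
      charDegree (ψ : G → ℂ) = p - 1 ∧ ∀ φ : IrrCharacter G, φ ≠ triv G → φ ≠ χ → φ ≠ ψ → m φ = 0) ∨
    (Ty.ε = 1 ∧ Nontrivial ((ZMod p)ˣ ⧸ (BrMain.om hz).range) ∧ ∃ χ : IrrCharacter G, χ ≠ triv G ∧ m χ = 1 ∧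
      charDegree (χ : G → ℂ) = p ∧ (∀ a : (ZMod p)ˣ, vv hzp χ a = 0) ∧ (∀ j, Ty.L j ≠ triv G ∧ Ty.L j ≠ χ ∧ m (Ty.L j) = 1 ∧ mu hzp (Ty.L j) 0 = 0) ∧
      ∀ φ : IrrCharacter G, φ ≠ triv G → φ ≠ χ → (∀ j, Ty.L j ≠ φ) → m φ = 0) := by
  classical
  haveI : Fintype ((ZMod p)ˣ ⧸ (BrMain.om hz).range) := Fintype.ofFinite _
  have hcard : Fintype.card (ZMod p)ˣ = p - 1 := card_units'
  have hsum : ∀ (χ : IrrCharacter G), charDegree (χ : G → ℂ) = mu hzp χ 0 + ∑ a : (ZMod p)ˣ, mu hzp χ a := by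
    intro χ
    rw [deg_eq hzp χ]
    have h1 := sum_units (p := p) (fun a => (mu hzp χ a : ℤ) - (if a = 0 then (mu hzp χ 0 : ℤ) else 0)) (by simp)
    have h2 : ∑ a : ZMod p, ((mu hzp χ a : ℤ) - (if a = 0 then (mu hzp χ 0 : ℤ) else 0)) = (∑ a : ZMod p, (mu hzp χ a : ℤ)) - mu hzp χ 0 := by
      rw [Finset.sum_sub_distrib, Finset.sum_ite_eq' Finset.univ (0 : ZMod p)]
      simp
    have h3 : ∑ a : (ZMod p)ˣ, ((mu hzp χ (a : ZMod p) : ℤ) - (if (a : ZMod p) = 0 then (mu hzp χ 0 : ℤ) else 0)) =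
        ∑ a : (ZMod p)ˣ, (mu hzp χ (a : ZMod p) : ℤ) := by
      apply Finset.sum_congr rfl
      intro a _
      rw [if_neg a.ne_zero, sub_zero]
    rw [h2] at h1
    have h4 := h1.trans h3
    have h5 : ((∑ a : ZMod p, mu hzp χ a : ℕ) : ℤ) = ((mu hzp χ 0 + ∑ a : (ZMod p)ˣ, mu hzp χ a : ℕ) : ℤ) := by
      push_cast
      linarith
    exact_mod_cast h5
  have hconst : ∀ (χ : IrrCharacter G) (c : ℕ), (∀ a : (ZMod p)ˣ, mu hzp χ a = c) → charDegree (χ : G → ℂ) = mu hzp χ 0 + (p - 1) * c := by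
    intro χ c h
    rw [hsum, Finset.sum_congr rfl fun a _ => h a, Finset.sum_const, Finset.card_univ, hcard, smul_eq_mul]
  -- the special constituent
  have h0 := hm 0
  rw [← Finset.add_sum_erase _ _ (Finset.mem_univ (triv G)), hm1, mu_triv_zero, one_mul] at h0
  obtain ⟨χ', hχ'S, hχ'1, hχ'2⟩ := sum_eq_one (s := Finset.univ.erase (triv G)) (f := fun χ => m χ * mu hzp χ 0) (by omega)
  have hχ't := (Finset.mem_erase.1 hχ'S).1
  have hmχ' : m χ' = 1 := Nat.eq_one_of_mul_eq_one_right hχ'1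
  have hmuχ' : mu hzp χ' 0 = 1 := Nat.eq_one_of_mul_eq_one_left hχ'1
  have hu : ∀ a : (ZMod p)ˣ, mu hzp χ' a + ∑ χ ∈ (Finset.univ.erase (triv G)).erase χ', m χ * mu hzp χ a = 2 := by
    intro a
    have h1 := hm a
    rw [← Finset.add_sum_erase _ _ (Finset.mem_univ (triv G)), mu_triv_unit, mul_zero, zero_add,
      ← Finset.add_sum_erase _ _ hχ'S, hmχ', one_mul] at h1
    exact h1
  have hother : ∀ χ : IrrCharacter G, χ ≠ triv G → χ ≠ χ' → m χ ≠ 0 → mu hzp χ 0 = 0 := by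
    intro χ h1 h2 h3
    have h4 : m χ * mu hzp χ 0 = 0 := hχ'2 χ (Finset.mem_erase.2 ⟨h1, Finset.mem_univ _⟩) h2
    rcases Nat.mul_eq_zero.1 h4 with h | h
    · exact absurd h h3
    · exact h
  have hmem : ∀ χ : IrrCharacter G, χ ≠ triv G → χ ≠ χ' → χ ∈ (Finset.univ.erase (triv G)).erase χ' := fun χ h1 h2 =>
    Finset.mem_erase.2 ⟨h2, Finset.mem_erase.2 ⟨h1, Finset.mem_univ _⟩⟩
  -- when nothing else can occur
  have hnone : ∀ χ : IrrCharacter G, χ ≠ triv G → χ ≠ χ' → (∀ a : (ZMod p)ˣ, m χ * mu hzp χ a = 0) → m χ = 0 := by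
    intro χ h1 h2 h3
    by_contra hmχ
    obtain ⟨a, ha⟩ := deg_pos hzp χ
    by_cases ha0 : a = 0
    · rw [ha0] at ha
      exact ha (hother χ h1 h2 hmχ)
    · rcases Nat.mul_eq_zero.1 (h3 (Units.mk0 a ha0)) with h | h
      · exact hmχ h
      · exact ha h
  have hR2 : (∀ a : (ZMod p)ˣ, mu hzp χ' a = 2) → ∑ χ, m χ ^ 2 = 2 := by
    intro h1
    have h5 : ∀ χ ∈ (Finset.univ.erase (triv G)).erase χ', m χ ^ 2 = 0 := by
      intro χ hχ
      have hχ1 := (Finset.mem_erase.1 hχ).1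
      have hχ2 := (Finset.mem_erase.1 (Finset.mem_erase.1 hχ).2).1
      rw [hnone χ hχ2 hχ1, zero_pow two_ne_zero]
      intro a
      have h2 := hu a
      rw [h1] at h2
      have h3 : ∑ χ ∈ (Finset.univ.erase (triv G)).erase χ', m χ * mu hzp χ a = 0 := by omega
      exact Finset.sum_eq_zero_iff.1 h3 χ hχ
    rw [← Finset.add_sum_erase _ _ (Finset.mem_univ (triv G)), hm1, ← Finset.add_sum_erase _ _ hχ'S, hmχ',
      Finset.sum_eq_zero h5]
    norm_num
  have hsurj : ∀ j : (ZMod p)ˣ ⧸ (BrMain.om hz).range, ∃ a : (ZMod p)ˣ, (a : (ZMod p)ˣ ⧸ (BrMain.om hz).range) = j :=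
    fun j => QuotientGroup.mk_surjective j
  have hall : ∀ χ : IrrCharacter G, (∃ d : ℤ, (d = 1 ∨ d = -1) ∧ ∀ a : (ZMod p)ˣ, vv hzp χ a = d) ∨
      (Nontrivial ((ZMod p)ˣ ⧸ (BrMain.om hz).range) ∧ ∃ j, Ty.L j = χ) ∨ ∀ a : (ZMod p)ˣ, vv hzp χ a = 0 := by
    intro χ
    rcases Ty.all χ with h | ⟨j, h⟩ | h
    · left; exact h
    · rcases subsingleton_or_nontrivial ((ZMod p)ˣ ⧸ (BrMain.om hz).range) with hQ | hQ
      · left
        refine ⟨-Ty.ε, by rcases Ty.hε with h1 | h1 <;> rw [h1] <;> simp, fun a => ?_⟩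
        rw [← h]
        exact Ty.on j a (Subsingleton.elim _ _)
      · right; left; exact ⟨hQ, j, h⟩
    · right; right; exact h
  have hN : ∀ χ : IrrCharacter G, χ ≠ triv G → χ ≠ χ' → m χ ≠ 0 → (∀ a : (ZMod p)ˣ, mu hzp χ a = 1) ∨
      (Nontrivial ((ZMod p)ˣ ⧸ (BrMain.om hz).range) ∧ Ty.ε = 1 ∧ ∃ j, Ty.L j = χ) := by
    intro χ h1 h2 h3
    have h4 := hother χ h1 h2 h3
    rcases hall χ with ⟨d, hd, h5⟩ | ⟨hQ, j, h5⟩ | h5
    · left
      intro a
      have h6 := h5 a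
      unfold vv at h6
      rw [h4] at h6
      rcases hd with h7 | h7 <;> rw [h7] at h6 <;> omega
    · right
      refine ⟨hQ, ?_, j, h5⟩
      obtain ⟨a, ha⟩ := hsurj j
      have h6 := Ty.on j a ha
      unfold vv at h6
      rw [h5, h4] at h6
      rcases Ty.hε with h7 | h7
      · exact h7
      · rw [h7] at h6; omega
    · exfalso
      obtain ⟨a, ha⟩ := deg_pos hzp χ
      by_cases ha0 : a = 0
      · rw [ha0] at ha; exact ha h4
      · have h6 := h5 (Units.mk0 a ha0)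
        unfold vv at h6
        rw [h4] at h6
        apply ha
        have h7 : ((Units.mk0 a ha0 : (ZMod p)ˣ) : ZMod p) = a := rfl
        rw [h7] at h6
        omega
  rcases hall χ' with ⟨d, hd, h5⟩ | ⟨hQ, j0, h5⟩ | h5
  · rcases hd with rfl | rfl
    · exfalso
      apply hχ't
      apply hperf
      rw [hconst χ' 0 (fun a => by have h6 := h5 a; unfold vv at h6; rw [hmuχ'] at h6; omega), hmuχ', mul_zero, add_zero]
    · left
      exact hR2 (fun a => by have h6 := h5 a; unfold vv at h6; rw [hmuχ'] at h6; omega)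
  · exfalso
    -- all other constituents are constant on units
    have hallN : ∀ χ : IrrCharacter G, χ ≠ triv G → χ ≠ χ' → m χ ≠ 0 → (∀ a : (ZMod p)ˣ, mu hzp χ a = 1) := by
      intro χ h1 h2 h3
      rcases hN χ h1 h2 h3 with h | ⟨-, hε1, j, h⟩
      · exact h
      · exfalso
        have e1 := exc_degree hzp (BrMain.om hz).range j (Ty.on j) (Ty.off j)
        have e2 := exc_degree hzp (BrMain.om hz).range j0 (Ty.on j0) (Ty.off j0)
        rw [Ty.deg j j0, e2, h5, hmuχ', h, hother χ h1 h2 h3] at e1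
        have := hp.out.pos
        push_cast at e1
        omega
    obtain ⟨j1, hj1⟩ := exists_ne j0
    obtain ⟨a0, ha0⟩ := hsurj j0
    obtain ⟨a1, ha1⟩ := hsurj j1
    have e0 := hu a0
    have e1 := hu a1
    have e2 : ∑ χ ∈ (Finset.univ.erase (triv G)).erase χ', m χ * mu hzp χ a0 =
        ∑ χ ∈ (Finset.univ.erase (triv G)).erase χ', m χ * mu hzp χ a1 := by
      apply Finset.sum_congr rfl
      intro χ hχ
      have hχ1 := (Finset.mem_erase.1 hχ).1
      have hχ2 := (Finset.mem_erase.1 (Finset.mem_erase.1 hχ).2).1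
      by_cases h0 : m χ = 0
      · rw [h0, zero_mul, zero_mul]
      · rw [hallN χ hχ2 hχ1 h0 a0, hallN χ hχ2 hχ1 h0 a1]
    have e3 := Ty.on j0 a0 ha0
    have e4 := Ty.off j0 a1 (by rw [ha1]; exact hj1)
    rw [h5] at e3 e4
    unfold vv at e3 e4
    rw [hmuχ'] at e3 e4
    rcases Ty.hε with h7 | h7 <;> rw [h7] at e3 <;> omega
  · have hmu1 : ∀ a : (ZMod p)ˣ, mu hzp χ' a = 1 := fun a => by
      have h6 := h5 a; unfold vv at h6; rw [hmuχ'] at h6; omega
    have hdeg : charDegree (χ' : G → ℂ) = p := by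
      rw [hconst χ' 1 hmu1, hmuχ', mul_one]
      omega
    have hu1 : ∀ a : (ZMod p)ˣ, ∑ χ ∈ (Finset.univ.erase (triv G)).erase χ', m χ * mu hzp χ a = 1 := by
      intro a
      have h6 := hu a
      rw [hmu1] at h6
      omega
    by_cases hex : ∃ ψ : IrrCharacter G, ψ ≠ triv G ∧ ψ ≠ χ' ∧ m ψ ≠ 0 ∧ ∀ a : (ZMod p)ˣ, mu hzp ψ a = 1
    · right; left
      obtain ⟨ψ, hψ1, hψ2, hψ3, hψ4⟩ := hex
      have hψm := hmem ψ hψ1 hψ2
      have h6 : ∀ a : (ZMod p)ˣ, m ψ + ∑ χ ∈ ((Finset.univ.erase (triv G)).erase χ').erase ψ, m χ * mu hzp χ a = 1 := by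
        intro a
        have h7 := hu1 a
        rw [← Finset.add_sum_erase _ _ hψm, hψ4, mul_one] at h7
        exact h7
      have hmψ : m ψ = 1 := by
        have := h6 1
        omega
      refine ⟨χ', ψ, hχ't, hψ1, hψ2.symm, hmχ', hmψ, hdeg, ?_, ?_⟩
      · rw [hconst ψ 1 hψ4, hother ψ hψ1 hψ2 hψ3, zero_add, mul_one]
      · intro φ hφ1 hφ2 hφ3
        apply hnone φ hφ1 hφ2
        intro a
        have h7 := h6 a
        have h8 : ∑ χ ∈ ((Finset.univ.erase (triv G)).erase χ').erase ψ, m χ * mu hzp χ a = 0 := by omega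
        exact Finset.sum_eq_zero_iff.1 h8 φ (Finset.mem_erase.2 ⟨hφ3, hmem φ hφ1 hφ2⟩)
    · right; right
      push Not at hex
      have hexc : ∀ χ : IrrCharacter G, χ ≠ triv G → χ ≠ χ' → m χ ≠ 0 →
          (Nontrivial ((ZMod p)ˣ ⧸ (BrMain.om hz).range) ∧ Ty.ε = 1 ∧ ∃ j, Ty.L j = χ) := by
        intro χ h1 h2 h3
        rcases hN χ h1 h2 h3 with h | h
        · obtain ⟨a, ha⟩ := hex χ h1 h2 h3
          exact absurd (h a) ha
        · exact h
      have hj : ∀ j, Ty.L j ≠ triv G ∧ Ty.L j ≠ χ' ∧ m (Ty.L j) = 1 ∧ mu hzp (Ty.L j) 0 = 0 ∧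
          Nontrivial ((ZMod p)ˣ ⧸ (BrMain.om hz).range) ∧ Ty.ε = 1 := by
        intro j
        obtain ⟨a, ha⟩ := hsurj j
        obtain ⟨χ, hχ, h6, -⟩ := sum_eq_one (hu1 a)
        have hχ1 := (Finset.mem_erase.1 hχ).1
        have hχ2 := (Finset.mem_erase.1 (Finset.mem_erase.1 hχ).2).1
        have h7 : m χ = 1 := Nat.eq_one_of_mul_eq_one_right h6
        have h8 : mu hzp χ a = 1 := Nat.eq_one_of_mul_eq_one_left h6
        obtain ⟨hQ, hε1, j', hj'⟩ := hexc χ hχ2 hχ1 (by omega)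
        have h9 := hother χ hχ2 hχ1 (by omega)
        have h10 : j' = j := by
          by_contra hne
          have h11 := Ty.off j' a (by rw [ha]; exact fun h => hne h.symm)
          unfold vv at h11
          rw [hj', h9, h8] at h11
          omega
        rw [← h10, hj']
        exact ⟨hχ2, hχ1, h7, h9, hQ, hε1⟩
      have hone := hj ((1 : (ZMod p)ˣ) : (ZMod p)ˣ ⧸ (BrMain.om hz).range)
      refine ⟨hone.2.2.2.2.2, hone.2.2.2.2.1, χ', hχ't, hmχ', hdeg, h5, fun j => ⟨(hj j).1, (hj j).2.1, (hj j).2.2.1, (hj j).2.2.2.1⟩, ?_⟩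
      intro φ hφ1 hφ2 hφ3
      by_contra hne
      obtain ⟨-, -, j, h⟩ := hexc φ hφ1 hφ2 hne
      exact hφ3 j h

end Cfsg.Agent.H9.BrSC
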