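import Cfsg.Statements.S0840
import Cfsg.Agent.H3_CharCalc

set_option autoImplicit false
open scoped ComplexConjugate
open Cfsg

namespace Cfsg.Agent.S0840

/-- Class multiplication coefficients from the character table: for elements a, b, c of a finite group G, the number of ordered pairs (x, y) with x conjugate to a, y conjugate to b and x * y = c equals the product of the sizes of the conjugacy classes of a and b, divided by the order of G, times the sum over the irreducible characters χ of χ a * χ b * conj (χ c) / χ 1. -/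
theorem result {G : Type*} [Group G] [Finite G] (a b c : G) : (Nat.card {p : G × G // IsConj a p.1 ∧ IsConj b p.2 ∧ p.1 * p.2 = c} : ℂ) = (Nat.card {x : G // IsConj a x} : ℂ) * (Nat.card {x : G // IsConj b x} : ℂ) / (Nat.card G : ℂ) * ∑ᶠ χ : Cfsg.IrrCharacter G, (χ : G → ℂ) a * (χ : G → ℂ) b * conj ((χ : G → ℂ) c) / (χ : G → ℂ) 1 := by
  classical
  have := Fintype.ofFinite G
  have := Fintype.ofFinite (Cfsg.IrrCharacter G)
  rw [finsum_eq_sum_of_fintype]
  have hG0 : (Nat.card G : ℂ) ≠ 0 := Cfsg.Agent.H3.CharIrr.card_cast_ne_zero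
  have h := Cfsg.Agent.H3.CharCalc.class_mult a b c
  have hA := Cfsg.Agent.H3.CharComplete.card_class_mul a
  have hB := Cfsg.Agent.H3.CharComplete.card_class_mul b
  have hcA : Nat.card {x : G // IsConj a x} = (Finset.univ.filter (IsConj a)).card := by
    rw [Nat.card_eq_fintype_card, Fintype.card_subtype]
  have hcB : Nat.card {x : G // IsConj b x} = (Finset.univ.filter (IsConj b)).card := by
    rw [Nat.card_eq_fintype_card, Fintype.card_subtype]
  have h1 : ((Finset.univ.filter (fun p : G × G =>
      p.1 * a * p.1⁻¹ * (p.2 * b * p.2⁻¹) = c)).card : ℂ) =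
      (Nat.card (Subgroup.centralizer ({a} : Set G)) : ℂ) *
      (Nat.card (Subgroup.centralizer ({b} : Set G)) : ℂ) *
      (Nat.card {p : G × G // IsConj a p.1 ∧ IsConj b p.2 ∧ p.1 * p.2 = c} : ℂ) := by
    have e1 : (Finset.univ.filter (fun p : G × G =>
        p.1 * a * p.1⁻¹ * (p.2 * b * p.2⁻¹) = c)).card =
        ∑ x : G, ∑ y : G, if x * a * x⁻¹ * (y * b * y⁻¹) = c then 1 else 0 := by
      rw [Finset.card_filter, Fintype.sum_prod_type]
    have e2 : ∀ x : G, (∑ y : G, if x * a * x⁻¹ * (y * b * y⁻¹) = c then 1 else 0) =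
        Nat.card (Subgroup.centralizer ({b} : Set G)) •
          ∑ z ∈ Finset.univ.filter (IsConj b), if x * a * x⁻¹ * z = c then 1 else 0 := fun x =>
      Cfsg.Agent.H3.CharComplete.sum_conj (fun z => if x * a * x⁻¹ * z = c then 1 else 0) b
    have e3 : (∑ x : G, ∑ z ∈ Finset.univ.filter (IsConj b), if x * a * x⁻¹ * z = c then 1 else 0) =
        Nat.card (Subgroup.centralizer ({a} : Set G)) • ∑ w ∈ Finset.univ.filter (IsConj a),
          ∑ z ∈ Finset.univ.filter (IsConj b), if w * z = c then 1 else 0 :=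
      Cfsg.Agent.H3.CharComplete.sum_conj
        (fun w => ∑ z ∈ Finset.univ.filter (IsConj b), if w * z = c then 1 else 0) a
    have e4 : Nat.card {p : G × G // IsConj a p.1 ∧ IsConj b p.2 ∧ p.1 * p.2 = c} =
        ∑ w ∈ Finset.univ.filter (IsConj a),
          ∑ z ∈ Finset.univ.filter (IsConj b), if w * z = c then 1 else 0 := by
      rw [Nat.card_eq_fintype_card, Fintype.card_subtype, Finset.card_filter,
        Fintype.sum_prod_type, Finset.sum_filter]
      refine Finset.sum_congr rfl fun w _ => ?_
      rw [Finset.sum_filter]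
      by_cases hw : IsConj a w
      · rw [if_pos hw]
        refine Finset.sum_congr rfl fun z _ => ?_
        by_cases hz : IsConj b z
        · simp only [hw, hz, true_and, if_true]
        · simp only [hw, hz, false_and, and_false, if_false]
      · rw [if_neg hw]
        simp only [hw, false_and, if_false, Finset.sum_const_zero]
    rw [e1, Finset.sum_congr rfl fun x _ => e2 x, ← Finset.smul_sum, e3, e4]
    simp only [smul_eq_mul]
    push_cast
    ring
  rw [h1] at h
  have hcA0 : (Nat.card (Subgroup.centralizer ({a} : Set G)) : ℂ) ≠ 0 := by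
    exact_mod_cast Nat.card_pos.ne'
  have hcB0 : (Nat.card (Subgroup.centralizer ({b} : Set G)) : ℂ) ≠ 0 := by
    exact_mod_cast Nat.card_pos.ne'
  have hA' : (Nat.card (Subgroup.centralizer ({a} : Set G)) : ℂ) *
    (Nat.card {x : G // IsConj a x} : ℂ) = (Nat.card G : ℂ) := by rw [hcA]; exact_mod_cast hA
  have hB' : (Nat.card (Subgroup.centralizer ({b} : Set G)) : ℂ) *
    (Nat.card {x : G // IsConj b x} : ℂ) = (Nat.card G : ℂ) := by rw [hcB]; exact_mod_cast hB
  set S := ∑ χ : Cfsg.IrrCharacter G,
    (χ : G → ℂ) a * (χ : G → ℂ) b * (starRingEnd ℂ) ((χ : G → ℂ) c) / (χ : G → ℂ) 1 with hS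
  have key : (Nat.card (Subgroup.centralizer ({a} : Set G)) : ℂ) *
      (Nat.card (Subgroup.centralizer ({b} : Set G)) : ℂ) *
      ((Nat.card {x : G // IsConj a x} : ℂ) * (Nat.card {x : G // IsConj b x} : ℂ) /
        (Nat.card G : ℂ) * S) = (Nat.card G : ℂ) * S := by
    calc _ = ((Nat.card (Subgroup.centralizer ({a} : Set G)) : ℂ) *
        (Nat.card {x : G // IsConj a x} : ℂ)) * ((Nat.card (Subgroup.centralizer ({b} : Set G)) : ℂ) *
        (Nat.card {x : G // IsConj b x} : ℂ)) / (Nat.card G : ℂ) * S := by ring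
      _ = _ := by rw [hA', hB']; field_simp
  rw [← key] at h
  exact mul_left_cancel₀ (mul_ne_zero hcA0 hcB0) h

end Cfsg.Agent.S0840
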