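import Mathlib
import Cfsg.Agent.H13_BrDeg
import Cfsg.Agent.H9_BrSC
import Cfsg.Agent.S0840
import Cfsg.Agent.S0944

/-!
# Structure constants for a self-centralising Sylow subgroup of prime order
-/

set_option autoImplicit false
set_option linter.unusedSectionVars false

namespace Cfsg.Agent.H13.SC

open Cfsg Cfsg.Agent.H3.CharIrr Cfsg.Agent.H3.CharComplete Cfsg.Agent.H10.Char Cfsg.Agent.H10.BlockKer
  Cfsg.Agent.H9.BrVec Cfsg.Agent.H9.BrMain Cfsg.Agent.H9.BrThm Cfsg.Agent.H9.BrCor Cfsg.Agent.H13.BrDeg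
open scoped ComplexConjugate

/-- the pairs of conjugates of `s` with product `z` -/
theorem count_pairs {G : Type*} [Group G] [Finite G] {p : ℕ} [hp : Fact p.Prime] (hp2 : p ≠ 2) (z s : G)
    (hz : orderOf z = p) (hC : ∀ y : G, y * z = z * y → y ∈ Subgroup.zpowers z) (hs : orderOf s = 2)
    (hinv : s * z * s⁻¹ = z⁻¹) :
    Nat.card {q : G × G // IsConj s q.1 ∧ IsConj s q.2 ∧ q.1 * q.2 = z} = p := by
  have hss : s * s = 1 := by rw [← pow_two, ← hs]; exact pow_orderOf_eq_one s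
  have hsi : s⁻¹ = s := by rw [inv_eq_iff_mul_eq_one]; exact hss
  have hord : ∀ g : G, IsConj s g → g * g = 1 := by
    intro g hg
    obtain ⟨c, rfl⟩ := isConj_iff.1 hg
    calc c * s * c⁻¹ * (c * s * c⁻¹) = c * (s * s) * c⁻¹ := by group
      _ = 1 := by rw [hss]; group
  have hodd : Odd p := hp.out.odd_of_ne_two hp2
  have hzu : ∀ u ∈ Subgroup.zpowers z, s * u = u⁻¹ * s := by
    intro u hu
    obtain ⟨k, rfl⟩ := Subgroup.mem_zpowers_iff.1 hu
    have h1 : s * z ^ k * s⁻¹ = (z ^ k)⁻¹ := by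
      have := (MulAut.conj s).toMonoidHom.map_zpow z k
      have h2 : s * z ^ k * s⁻¹ = (s * z * s⁻¹) ^ k := this
      rw [h2, hinv, inv_zpow]
    rw [← h1]; group
  have hconj : ∀ u ∈ Subgroup.zpowers z, IsConj s (u * s) := by
    intro u hu
    obtain ⟨m, hm⟩ := hodd
    have hup : u ^ p = 1 := by
      have h := Subgroup.orderOf_dvd_natCard _ hu
      rw [Nat.card_zpowers, hz] at h
      exact orderOf_dvd_iff_pow_eq_one.1 h
    have h1 : u = (u ^ (m + 1)) * (u ^ (m + 1)) := by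
      rw [← pow_add, show m + 1 + (m + 1) = p + 1 by omega, pow_succ, hup, one_mul]
    rw [isConj_iff]
    refine ⟨u ^ (m + 1), ?_⟩
    have h2 := hzu (u ^ (m + 1))⁻¹ (Subgroup.inv_mem _ (Subgroup.pow_mem _ hu _))
    rw [inv_inv] at h2
    rw [mul_assoc, h2, ← mul_assoc, ← h1]
  rw [← hz, ← Nat.card_zpowers]
  apply Nat.card_congr
  refine ⟨fun q => ⟨q.1.1 * s, ?_⟩, fun u => ⟨(u * s, s * (u : G)⁻¹ * z), ?_, ?_, ?_⟩, ?_, ?_⟩
  · obtain ⟨⟨a, b⟩, h1, h2, h3⟩ := q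
    change a * s ∈ Subgroup.zpowers z
    have ha := hord a h1
    have hb := hord b h2
    change a * b = z at h3
    have hai : a⁻¹ = a := by rw [inv_eq_iff_mul_eq_one]; exact ha
    have hbi : b⁻¹ = b := by rw [inv_eq_iff_mul_eq_one]; exact hb
    have h4 : a * z * a⁻¹ = z⁻¹ := by
      rw [← h3, mul_inv_rev, hbi, hai, ← mul_assoc, ha, one_mul]
    apply hC
    -- a s commutes with z
    have h5 : a * s * z * (a * s)⁻¹ = z := by
      calc a * s * z * (a * s)⁻¹ = a * (s * z * s⁻¹) * a⁻¹ := by group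
        _ = a * z⁻¹ * a⁻¹ := by rw [hinv]
        _ = (a * z * a⁻¹)⁻¹ := by group
        _ = z := by rw [h4, inv_inv]
    rw [mul_inv_eq_iff_eq_mul] at h5
    exact h5
  · exact hconj u u.2
  · change IsConj s (s * (u : G)⁻¹ * z)
    have h1 : s * (u : G)⁻¹ = u * s := by
      have := hzu (u : G)⁻¹ (Subgroup.inv_mem _ u.2)
      rwa [inv_inv] at this
    have h2 : s * (u : G)⁻¹ * z = (u * z⁻¹) * s := by
      rw [h1, mul_assoc, hzu z (Subgroup.mem_zpowers z), mul_assoc]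
    rw [h2]
    exact hconj _ (Subgroup.mul_mem _ u.2 (Subgroup.inv_mem _ (Subgroup.mem_zpowers z)))
  · change (u : G) * s * (s * (u : G)⁻¹ * z) = z
    calc (u : G) * s * (s * (u : G)⁻¹ * z) = u * (s * s) * (u : G)⁻¹ * z := by group
      _ = z := by rw [hss]; group
  · rintro ⟨⟨a, b⟩, h1, h2, h3⟩
    apply Subtype.ext
    change a * b = z at h3
    have ha := hord a h1
    have hai : a⁻¹ = a := by rw [inv_eq_iff_mul_eq_one]; exact ha
    apply Prod.ext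
    · change a * s * s = a
      rw [mul_assoc, hss, mul_one]
    · change s * (a * s)⁻¹ * z = b
      rw [mul_inv_rev, hsi, ← mul_assoc, hss, one_mul, hai, ← h3, ← mul_assoc, ha, one_mul]
  · intro u
    apply Subtype.ext
    change (u : G) * s * s = u
    rw [mul_assoc, hss, mul_one]

section simple

variable {G : Type*} [Group G] [Fintype G] [IsSimpleGroup G]

theorem int_sum {ι : Type*} (T : Finset ι) (f : ι → ℂ) (m : ι → ℤ) (h : ∀ i ∈ T, f i = m i) :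
    ∑ i ∈ T, f i = ((∑ i ∈ T, m i : ℤ) : ℂ) := by
  push_cast
  exact Finset.sum_congr rfl h

/-- the structure constant relation -/
theorem main (hG : ¬ IsMulCommutative G) (p : ℕ) [hp : Fact p.Prime] (hp2 : p ≠ 2) (P : Sylow p G)
    (hP : Nat.card (P : Subgroup G) = p)
    (hCP : Nat.card (Subgroup.centralizer ((P : Subgroup G) : Set G)) = p)
    (s : G) (hs : orderOf s = 2) (hsN : ∀ x ∈ (P : Subgroup G), s * x * s⁻¹ = x⁻¹)
    (e : ℕ) (he : (Subgroup.centralizer ((P : Subgroup G) : Set G)).relIndex (Subgroup.normalizer ((P : Subgroup G) : Set G)) = e) :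
    ∃ (X Y : Finset (IrrCharacter G)) (δ v : IrrCharacter G → ℤ) (ε b : ℤ) (g : ℕ),
      triv G ∈ X ∧ X.card = e ∧ Y.card * e = p - 1 ∧ δ (triv G) = 1 ∧ (ε = 1 ∨ ε = -1) ∧
      (∀ χ ∈ X, (δ χ = 1 ∨ δ χ = -1) ∧ ∃ k : ℤ, (charDegree (χ : G → ℂ) : ℤ) = p * k + δ χ) ∧
      (∃ k : ℤ, (g : ℤ) = p * k + ε * e) ∧ g ∣ Nat.card G ∧ 2 ≤ g ∧
      ((ε : ℤ) * g = ∑ χ ∈ X, δ χ * charDegree (χ : G → ℂ)) ∧
      (∑ χ ∈ X, charDegree (χ : G → ℂ) ^ 2 + Y.card * g ^ 2 ≤ Nat.card G) ∧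
      v (triv G) = 1 ∧
      (∀ χ ∈ X, (2 : ℤ) ∣ (charDegree (χ : G → ℂ) : ℤ) - v χ) ∧ ((2 : ℤ) ∣ (g : ℤ) - b) ∧
      (ε * b = ∑ χ ∈ X, δ χ * v χ) ∧
      (∑ χ ∈ X, v χ ^ 2 + Y.card * b ^ 2 ≤ (Nat.card (Subgroup.centralizer ({s} : Set G)) : ℤ)) ∧
      ((p : ℚ) * (Nat.card (Subgroup.centralizer ({s} : Set G)) : ℚ) ^ 2 =
        (Nat.card G : ℚ) * (∑ χ ∈ X, (δ χ : ℚ) * (v χ : ℚ) ^ 2 / (charDegree (χ : G → ℂ) : ℚ) - (ε : ℚ) * (b : ℚ) ^ 2 / g)) := by
  classical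
  have _inst : Fintype (IrrCharacter G) := Fintype.ofFinite _
  obtain ⟨M, hM⟩ := H10.BlockKn.exists_modular hp.out
  haveI : IsCyclic (P : Subgroup G) := isCyclic_of_prime_card hP
  obtain ⟨z0, hz0⟩ := IsCyclic.exists_generator (α := (P : Subgroup G))
  have hzP : Subgroup.zpowers (z0 : G) = (P : Subgroup G) := by
    ext x
    constructor
    · intro hx
      obtain ⟨n, rfl⟩ := Subgroup.mem_zpowers_iff.1 hx
      exact Subgroup.zpow_mem _ z0.2 n
    · intro hx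
      obtain ⟨n, hn⟩ := Subgroup.mem_zpowers_iff.1 (hz0 ⟨x, hx⟩)
      rw [Subgroup.mem_zpowers_iff]
      exact ⟨n, by simpa using congrArg Subtype.val hn⟩
  have hz : orderOf (z0 : G) = p := by
    rw [← Nat.card_zpowers, hzP]; exact hP
  have hzp : (z0 : G) ^ p = 1 := by
    have := pow_orderOf_eq_one (z0 : G)
    rwa [hz] at this
  have hsyl : ¬ p ∣ (Subgroup.zpowers (z0 : G)).index := by
    rw [hzP]; exact P.not_dvd_index
  have hcard : Nat.card (Cfsg.Agent.H9.BrMain.om hz).range = e := by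
    rw [card_range, ← he, hzP]
  have hPC : (P : Subgroup G) = Subgroup.centralizer ((P : Subgroup G) : Set G) := by
    obtain ⟨u, hou, hzu, hc⟩ := H13.Cnt.gen P hP
    apply Subgroup.eq_of_le_of_card_ge
    · intro y hy
      rw [hc]
      rw [hzu] at hy
      obtain ⟨j, rfl⟩ := Subgroup.mem_zpowers_iff.1 hy
      exact ((Commute.refl u).zpow_left j).eq
    · rw [hP, hCP]
  have hC : ∀ y : G, y * z0 = z0 * y → y ∈ Subgroup.zpowers (z0 : G) := by
    intro y hy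
    rw [hzP, hPC, Subgroup.mem_centralizer_iff]
    intro x hx
    have hx' : x ∈ (P : Subgroup G) := hx
    rw [← hzP] at hx'
    obtain ⟨n, rfl⟩ := Subgroup.mem_zpowers_iff.1 hx'
    exact ((show Commute y z0 from hy).zpow_right n).eq.symm
  obtain ⟨X, Y, δ, ε, L, h1, h2, h3, h4, h5, h6, h7, h8, h9, h10, h11, h12⟩ := brauer hM hz hzp hsyl
  have hmul := card_J hz
  have h1p : ¬ p ∣ orderOf (1 : G) := by
    rw [orderOf_one]; intro h; exact hp.out.one_lt.ne' (Nat.dvd_one.1 h)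
  have hsp : ¬ p ∣ orderOf s := by
    rw [hs]; intro h
    exact hp2 ((Nat.prime_dvd_prime_iff_eq hp.out Nat.prime_two).1 h)
  let j0 : (ZMod p)ˣ ⧸ (om hz).range := ((1 : (ZMod p)ˣ) : (ZMod p)ˣ ⧸ (om hz).range)
  have hrel1 : ∀ j, (ε : ℤ) * charDegree (L j : G → ℂ) = ∑ χ ∈ X, δ χ * charDegree (χ : G → ℂ) := by
    intro j
    have e1 := h12 j 1 h1p
    have e2 : ((ε * charDegree (L j : G → ℂ) : ℤ) : ℂ) = ((∑ χ ∈ X, δ χ * charDegree (χ : G → ℂ) : ℤ) : ℂ) := by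
      push_cast
      rw [charDegree_eq (L j).2, e1]
      exact Finset.sum_congr rfl fun χ _ => by rw [charDegree_eq χ.2]
    exact_mod_cast e2
  have hε0 : ε ≠ 0 := by rcases h7 with h | h <;> rw [h] <;> norm_num
  have hLsame : ∀ j, charDegree (L j : G → ℂ) = charDegree (L j0 : G → ℂ) := by
    intro j
    have e1 := (hrel1 j).trans (hrel1 j0).symm
    exact_mod_cast mul_left_cancel₀ hε0 e1
  have hδt : δ (triv G) = 1 := by
    have e1 := (h6 _ h3).2 1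
    rw [vv_triv hzp 1] at e1
    exact e1.symm
  -- values at s
  have hval : ∀ χ : IrrCharacter G, ∃ n : ℤ, (χ : G → ℂ) s = (n : ℂ) ∧ (2 : ℤ) ∣ (charDegree (χ : G → ℂ) : ℤ) - n :=
    fun χ => S0944.result χ s hs
  choose v hv1 hv2 using hval
  have hrels : ∀ j, ε * v (L j) = ∑ χ ∈ X, δ χ * v χ := by
    intro j
    have e1 := h12 j s hsp
    have e2 : ((ε * v (L j) : ℤ) : ℂ) = ((∑ χ ∈ X, δ χ * v χ : ℤ) : ℂ) := by
      push_cast
      rw [← hv1, e1]
      exact Finset.sum_congr rfl fun χ _ => by rw [hv1]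
    exact_mod_cast e2
  have hvsame : ∀ j, v (L j) = v (L j0) := by
    intro j
    exact mul_left_cancel₀ hε0 ((hrels j).trans (hrels j0).symm)
  have hYdeg : ∀ θ ∈ Y, charDegree (θ : G → ℂ) = charDegree (L j0 : G → ℂ) := by
    intro θ hθ
    obtain ⟨j, rfl⟩ := (h9 θ).1 hθ
    exact hLsame j
  have hYv : ∀ θ ∈ Y, v θ = v (L j0) := by
    intro θ hθ
    obtain ⟨j, rfl⟩ := (h9 θ).1 hθ
    exact hvsame j
  have hXz : ∀ χ ∈ X, (χ : G → ℂ) z0 = δ χ := by
    intro χ hχ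
    have := nonexc_value hzp (h6 χ hχ).2 (i := 1) one_ne_zero
    rwa [zp_one] at this
  have hOz : ∀ χ : IrrCharacter G, χ ∉ X → χ ∉ Y → (χ : G → ℂ) z0 = 0 := by
    intro χ hX hY
    have := Cfsg.Agent.H9.BrSC.char_zero hM hz hsyl hC (χ := χ) (by
      rw [h1]; rintro (h | h)
      · exact hX h
      · exact hY h) (i := 1) one_ne_zero
    rwa [zp_one] at this
  -- the sum of the exceptional values
  have hz1 : (z0 : G) ≠ 1 := by
    intro h
    rw [h, orderOf_one] at hz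
    exact hp.out.one_lt.ne hz
  have hsplit : ∀ F : IrrCharacter G → ℂ, (∀ χ, χ ∉ X → χ ∉ Y → F χ = 0) →
      ∑ χ : IrrCharacter G, F χ = ∑ χ ∈ X, F χ + ∑ χ ∈ Y, F χ := by
    intro F hF
    rw [← Finset.sum_union h2]
    symm
    apply Finset.sum_subset (Finset.subset_univ _)
    intro χ _ hχ
    rw [Finset.mem_union, not_or] at hχ
    exact hF χ hχ.1 hχ.2
  have hdegC : ∀ χ : IrrCharacter G, (χ : G → ℂ) 1 = (charDegree (χ : G → ℂ) : ℂ) := fun χ => (charDegree_eq χ.2).symm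
  have hg0 : (charDegree (L j0 : G → ℂ) : ℂ) ≠ 0 := by
    exact_mod_cast (charDegree_pos (L j0).2).ne'
  have hsumY : ∑ θ ∈ Y, conj ((θ : G → ℂ) z0) = -(ε : ℂ) := by
    have o := orth2 (1 : G) (z0 : G)
    rw [if_neg (by
      intro h
      exact hz1 (isConj_one_right.1 h))] at o
    rw [hsplit _ (fun χ hX hY => by rw [hOz χ hX hY, map_zero, mul_zero])] at o
    have o1 : ∑ χ ∈ X, (χ : G → ℂ) 1 * conj ((χ : G → ℂ) z0) = (ε : ℂ) * charDegree (L j0 : G → ℂ) := by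
      have e1 := hrel1 j0
      have e2 : ((ε * charDegree (L j0 : G → ℂ) : ℤ) : ℂ) = ((∑ χ ∈ X, δ χ * charDegree (χ : G → ℂ) : ℤ) : ℂ) := by
        rw [e1]
      push_cast at e2
      rw [e2]
      apply Finset.sum_congr rfl
      intro χ hχ
      rw [hXz χ hχ, hdegC, map_intCast, mul_comm]
    have o2 : ∑ χ ∈ Y, (χ : G → ℂ) 1 * conj ((χ : G → ℂ) z0) = (charDegree (L j0 : G → ℂ) : ℂ) * ∑ θ ∈ Y, conj ((θ : G → ℂ) z0) := by
      rw [Finset.mul_sum]
      apply Finset.sum_congr rfl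
      intro θ hθ
      rw [hdegC, hYdeg θ hθ]
    rw [o1, o2] at o
    have : (charDegree (L j0 : G → ℂ) : ℂ) * (∑ θ ∈ Y, conj ((θ : G → ℂ) z0) + ε) = 0 := by linear_combination o
    rcases mul_eq_zero.1 this with h | h
    · exact absurd h hg0
    · linear_combination h
  -- structure constant
  have hstruct := S0840.result (G := G) s s (z0 : G)
  rw [count_pairs hp2 (z0 : G) s hz hC hs (hsN z0 z0.2), finsum_eq_sum_of_fintype] at hstruct
  rw [hsplit _ (fun χ hX hY => by rw [hOz χ hX hY, map_zero, mul_zero, zero_div])] at hstruct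
  have s1 : ∑ χ ∈ X, (χ : G → ℂ) s * (χ : G → ℂ) s * conj ((χ : G → ℂ) z0) / (χ : G → ℂ) 1 =
      ∑ χ ∈ X, (δ χ : ℂ) * (v χ : ℂ) ^ 2 / (charDegree (χ : G → ℂ) : ℂ) := by
    apply Finset.sum_congr rfl
    intro χ hχ
    rw [hXz χ hχ, hdegC, map_intCast, hv1]
    ring
  have s2 : ∑ χ ∈ Y, (χ : G → ℂ) s * (χ : G → ℂ) s * conj ((χ : G → ℂ) z0) / (χ : G → ℂ) 1 =
      - ((ε : ℂ) * (v (L j0) : ℂ) ^ 2 / (charDegree (L j0 : G → ℂ) : ℂ)) := by
    have : ∑ χ ∈ Y, (χ : G → ℂ) s * (χ : G → ℂ) s * conj ((χ : G → ℂ) z0) / (χ : G → ℂ) 1 =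
        (v (L j0) : ℂ) ^ 2 / (charDegree (L j0 : G → ℂ) : ℂ) * ∑ θ ∈ Y, conj ((θ : G → ℂ) z0) := by
      rw [Finset.mul_sum]
      apply Finset.sum_congr rfl
      intro θ hθ
      rw [hdegC, hYdeg θ hθ, hv1, hYv θ hθ]
      ring
    rw [this, hsumY]; ring
  rw [s1, s2] at hstruct
  have hcls : (Nat.card (Subgroup.centralizer ({s} : Set G)) : ℂ) * (Nat.card {x : G // IsConj s x} : ℂ) = (Nat.card G : ℂ) := by
    exact_mod_cast H13.Cnt.card_cls s
  have hG0 : (Nat.card G : ℂ) ≠ 0 := by exact_mod_cast Nat.card_pos.ne'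
  have hfinal : (p : ℂ) * (Nat.card (Subgroup.centralizer ({s} : Set G)) : ℂ) ^ 2 =
        (Nat.card G : ℂ) * (∑ χ ∈ X, (δ χ : ℂ) * (v χ : ℂ) ^ 2 / (charDegree (χ : G → ℂ) : ℂ) -
          (ε : ℂ) * (v (L j0) : ℂ) ^ 2 / (charDegree (L j0 : G → ℂ) : ℂ)) := by
    rw [hstruct]
    set K := (Nat.card (Subgroup.centralizer ({s} : Set G)) : ℂ)
    set c := (Nat.card {x : G // IsConj s x} : ℂ)
    set S := ∑ χ ∈ X, (δ χ : ℂ) * (v χ : ℂ) ^ 2 / (charDegree (χ : G → ℂ) : ℂ)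
    rw [← hcls] at hG0 ⊢
    field_simp
    ring
  have horth : ∑ χ ∈ X, v χ ^ 2 + Y.card * v (L j0) ^ 2 ≤ (Nat.card (Subgroup.centralizer ({s} : Set G)) : ℤ) := by
    have o := orth2 s s
    rw [if_pos (IsConj.refl _)] at o
    have o1 : ((∑ χ : IrrCharacter G, v χ ^ 2 : ℤ) : ℂ) = ((Nat.card (Subgroup.centralizer ({s} : Set G)) : ℤ) : ℂ) := by
      push_cast
      rw [← o]
      apply Finset.sum_congr rfl
      intro χ _
      rw [hv1, map_intCast, sq]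
    have o2 : (∑ χ : IrrCharacter G, v χ ^ 2 : ℤ) = (Nat.card (Subgroup.centralizer ({s} : Set G)) : ℤ) := by
      exact_mod_cast o1
    have o3 : ∑ χ ∈ Y, v χ ^ 2 = Y.card * v (L j0) ^ 2 := by
      rw [← nsmul_eq_mul, ← Finset.sum_const]
      apply Finset.sum_congr rfl
      intro θ hθ
      rw [hYv θ hθ]
    rw [← o3, ← Finset.sum_union h2, ← o2]
    exact Finset.sum_le_sum_of_subset_of_nonneg (Finset.subset_univ _) (fun χ _ _ => sq_nonneg _)
  refine ⟨X, Y, δ, v, ε, v (L j0), charDegree (L j0 : G → ℂ), h3, by rw [h4, hcard], ?_, hδt, h7, ?_, ?_, ?_, ?_, hrel1 j0, ?_, ?_, ?_, ?_, hrels j0, horth, ?_⟩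
  · rw [h5, ← hcard, mul_comm]
    rw [← hmul]
  · intro χ hχ
    exact ⟨(h6 χ hχ).1, ⟨_, nonexc_degree hzp (h6 χ hχ).2⟩⟩
  · refine ⟨mu hzp (L j0) 0, ?_⟩
    rw [exc_degree hzp _ j0 (h10 j0) (h11 j0), hcard]
  · exact H10.BlockGreen.charDegree_dvd_card _
  · have e1 : 0 < charDegree (L j0 : G → ℂ) := charDegree_pos (L j0).2
    have e2 : charDegree (L j0 : G → ℂ) ≠ 1 := by
      intro h
      have h' := lin_triv hG h
      have h'' : L j0 ∈ Y := (h9 _).2 ⟨j0, rfl⟩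
      rw [h'] at h''
      exact (Finset.disjoint_left.1 h2) h3 h''
    omega
  · have e1 : ∑ χ ∈ Y, charDegree (χ : G → ℂ) ^ 2 = Y.card * charDegree (L j0 : G → ℂ) ^ 2 := by
      rw [← smul_eq_mul, ← Finset.sum_const]
      apply Finset.sum_congr rfl
      intro θ hθ
      rw [hYdeg θ hθ]
    rw [← e1, ← Finset.sum_union h2, ← sum_sq_nat (G := G)]
    exact Finset.sum_le_sum_of_subset (Finset.subset_univ _)
  · have := hv1 (triv G)
    rw [triv_coe] at this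
    exact_mod_cast this.symm
  · intro χ _
    exact hv2 χ
  · exact hv2 (L j0)
  · have : (((p : ℚ) * (Nat.card (Subgroup.centralizer ({s} : Set G)) : ℚ) ^ 2 : ℚ) : ℂ) =
        (((Nat.card G : ℚ) * (∑ χ ∈ X, (δ χ : ℚ) * (v χ : ℚ) ^ 2 / (charDegree (χ : G → ℂ) : ℚ) - (ε : ℚ) * (v (L j0) : ℚ) ^ 2 / (charDegree (L j0 : G → ℂ) : ℕ)) : ℚ) : ℂ) := by
      push_cast
      exact hfinal
    exact_mod_cast this

end simple

end Cfsg.Agent.H13.SC
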