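import Mathlib
import Cfsg.Agent.H13_SC

/-!
# No simple group of order 4032
-/

set_option autoImplicit false

open Cfsg

namespace Cfsg.Agent.H13.Ord4032

open Subgroup Cfsg.Agent.H13.Cnt Cfsg.Agent.H13.Cnt2

variable {G : Type*} [Group G] [Finite G]

/-- an involution normalising but not centralising a group of prime order inverts it -/
theorem inverts {p : ℕ} [hp : Fact p.Prime] (P : Sylow p G) (hP : Nat.card (P : Subgroup G) = p) (s : G)
    (hs : s * s = 1) (hsN : s ∈ normalizer ((P : Subgroup G) : Set G)) (hsC : s ∉ centralizer ((P : Subgroup G) : Set G)) :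
    ∀ x ∈ (P : Subgroup G), s * x * s⁻¹ = x⁻¹ := by
  obtain ⟨u, hou, hz, hc⟩ := gen P hP
  intro x hx
  have hsi : s⁻¹ = s := by rw [inv_eq_iff_mul_eq_one]; exact hs
  have hcomm : ∀ a ∈ (P : Subgroup G), ∀ b ∈ (P : Subgroup G), a * b = b * a := by
    intro a ha b hb
    rw [hz] at ha hb
    obtain ⟨i, rfl⟩ := mem_zpowers_iff.1 ha
    obtain ⟨j, rfl⟩ := mem_zpowers_iff.1 hb
    rw [← zpow_add, ← zpow_add, add_comm]
  have hsx : s * x * s⁻¹ ∈ (P : Subgroup G) := (Subgroup.mem_normalizer_iff.1 hsN x).1 hx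
  set w := x * (s * x * s⁻¹) with hw
  have hwP : w ∈ (P : Subgroup G) := mul_mem hx hsx
  have hsw : s * w = w * s := by
    calc s * w = s * (x * (s * x * s⁻¹)) := rfl
      _ = (s * x * s⁻¹) * (s * s * x * (s⁻¹ * s⁻¹)) * s := by group
      _ = (s * x * s⁻¹) * x * s := by rw [hsi, hs]; group
      _ = x * (s * x * s⁻¹) * s := by rw [hcomm _ hsx _ hx]
  by_cases hw1 : w = 1
  · rw [hw] at hw1
    exact (eq_inv_of_mul_eq_one_right hw1)
  · exfalso
    apply hsC
    have h1 : zpowers w = (P : Subgroup G) := by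
      apply Subgroup.eq_of_le_of_card_ge (zpowers_le.2 hwP)
      rw [hP, Nat.card_zpowers]
      have h2 := Subgroup.orderOf_dvd_natCard _ hwP
      rw [hP] at h2
      rcases (Nat.dvd_prime hp.out).1 h2 with h3 | h3
      · exact absurd (orderOf_eq_one_iff.1 h3) hw1
      · rw [h3]
    rw [hc]
    have h2 : u ∈ zpowers w := by rw [h1, hz]; exact mem_zpowers u
    obtain ⟨k, hk⟩ := mem_zpowers_iff.1 h2
    rw [← hk]
    exact ((show Commute s w from hsw).zpow_right k).eq

/-- the number of solutions of `g ^ 2 = 1` has the parity of the order -/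
theorem even_sol (B : Subgroup G) (h : 2 ∣ Nat.card B) : 2 ∣ Nat.card {g : G // g ∈ B ∧ g ^ 2 = 1} := by
  haveI : Fact (Nat.Prime 2) := ⟨Nat.prime_two⟩
  have h1 := mod_fix (Equiv.inv B) 2 1 (by
    ext x
    rw [pow_one, pow_two]
    simp)
  have h2 : Nat.card {a : B // (Equiv.inv B) a = a} = Nat.card {g : G // g ∈ B ∧ g ^ 2 = 1} := by
    apply Nat.card_congr
    refine ⟨fun q => ⟨q.1.1, q.1.2, ?_⟩, fun q => ⟨⟨q.1, q.2.1⟩, ?_⟩, fun _ => rfl, fun _ => rfl⟩
    · have h3 : (q.1)⁻¹ = q.1 := q.2
      have h4 : ((q.1 : B) : G)⁻¹ = q.1 := congrArg Subtype.val h3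
      rw [pow_two, ← inv_eq_iff_mul_eq_one]
      exact h4
    · apply Subtype.ext
      change (q.1 : G)⁻¹ = q.1
      rw [inv_eq_iff_mul_eq_one, ← pow_two]
      exact q.2.2
  rw [h2] at h1
  have h3 : Nat.card {g : G // g ∈ B ∧ g ^ 2 = 1} ≡ 0 [MOD 2] := h1.symm.trans ((Nat.modEq_zero_iff_dvd).2 h)
  exact (Nat.modEq_zero_iff_dvd).1 h3

/-- the parity argument: if every involution of `B` has exactly `j` conjugates in `B`, `j` even, then `B` has at
least `2 j + 1` solutions -/
theorem parity (B : Subgroup G) (hB : 2 ∣ Nat.card B) (j : ℕ) (hj : 2 ∣ j)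
    (h : ∀ t ∈ B, orderOf t = 2 → Nat.card {g : G // IsConj t g ∧ g ∈ B} = j) (t : G) (htB : t ∈ B) (ht : orderOf t = 2) :
    2 * j + 1 ≤ Nat.card {g : G // g ∈ B ∧ g ^ 2 = 1} := by
  have h1 := even_sol B hB
  have h2 := split (fun g => g ∈ B ∧ g ^ 2 = 1) (fun g => IsConj t g)
  have hord : ∀ t g : G, orderOf t = 2 → IsConj t g → orderOf g = 2 := by
    intro t g ht hg
    obtain ⟨c, rfl⟩ := isConj_iff.1 hg
    have := MulEquiv.orderOf_eq (MulAut.conj c) t
    rw [MulAut.conj_apply] at this
    rw [this, ht]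
  have h3 : Nat.card {g : G // (g ∈ B ∧ g ^ 2 = 1) ∧ IsConj t g} = j := by
    rw [← h t htB ht]
    apply Nat.card_congr
    apply Equiv.subtypeEquivRight
    intro g
    constructor
    · rintro ⟨⟨h1, h2⟩, h3⟩
      exact ⟨h3, h1⟩
    · rintro ⟨h1, h2⟩
      refine ⟨⟨h2, ?_⟩, h1⟩
      rw [← hord t g ht h1]; exact pow_orderOf_eq_one g
  rw [h3] at h2
  have hone : (1 ∈ B ∧ (1 : G) ^ 2 = 1) ∧ ¬ IsConj t 1 := by
    refine ⟨⟨B.one_mem, one_pow 2⟩, fun h => ?_⟩
    rw [isConj_one_left.1 h, orderOf_one] at ht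
    omega
  have h4 : 0 < Nat.card {g : G // (g ∈ B ∧ g ^ 2 = 1) ∧ ¬ IsConj t g} := by
    have : Nonempty {g : G // (g ∈ B ∧ g ^ 2 = 1) ∧ ¬ IsConj t g} := ⟨⟨1, hone⟩⟩
    exact Nat.card_pos
  have h5 : 1 < Nat.card {g : G // (g ∈ B ∧ g ^ 2 = 1) ∧ ¬ IsConj t g} := by
    rw [h2] at h1
    omega
  have h6 : Nontrivial {g : G // (g ∈ B ∧ g ^ 2 = 1) ∧ ¬ IsConj t g} := Finite.one_lt_card_iff_nontrivial.1 h5
  obtain ⟨⟨t', ht'⟩, hne⟩ := exists_ne (⟨1, hone⟩ : {g : G // (g ∈ B ∧ g ^ 2 = 1) ∧ ¬ IsConj t g})
  have hne1 : t' ≠ 1 := fun h => hne (Subtype.ext h)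
  have hot' : orderOf t' = 2 := orderOf_eq_prime ht'.1.2 hne1
  have h7 : Nat.card {g : G // IsConj t' g ∧ g ∈ B} + 1 ≤ Nat.card {g : G // (g ∈ B ∧ g ^ 2 = 1) ∧ ¬ IsConj t g} := by
    rw [← Finite.card_option]
    apply Nat.card_le_card_of_injective (fun o : Option {g : G // IsConj t' g ∧ g ∈ B} =>
      (o.elim ⟨1, hone⟩ (fun g => ⟨g.1, ⟨g.2.2, by
        rw [← hord t' g.1 hot' g.2.1]; exact pow_orderOf_eq_one _⟩, fun h => ht'.2 (h.trans g.2.1.symm)⟩) :
          {g : G // (g ∈ B ∧ g ^ 2 = 1) ∧ ¬ IsConj t g}))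
    rintro (_ | ⟨a, ha⟩) (_ | ⟨b, hb⟩) hab
    · rfl
    · simp only [Option.elim, Subtype.mk.injEq] at hab
      have := hord t' b hot' hb.1
      rw [← hab, orderOf_one] at this
      omega
    · simp only [Option.elim, Subtype.mk.injEq] at hab
      have := hord t' a hot' ha.1
      rw [hab, orderOf_one] at this
      omega
    · simp only [Option.elim, Subtype.mk.injEq] at hab
      subst hab
      rfl
  rw [h t' ht'.1.1 hot'] at h7
  rw [h2]
  omega

/-- weakly closed central elements and transfer -/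
theorem transfer_contra [IsSimpleGroup G] (hG : ¬ IsMulCommutative G) (N K : Subgroup G) (hK : K ≤ N)
    [hKn : (K.subgroupOf N).Normal] (hq : ∀ a b : N ⧸ K.subgroupOf N, a * b = b * a) (x : G) (hx3 : x ^ 3 = 1) (hxN : x ∈ N)
    (hxK : x ∉ K) (hw : ∀ g : G, g⁻¹ * x * g ∈ N → g⁻¹ * x * g = x) (hidx : N.index % 3 = 1) : False := by
  have _ := Fintype.ofFinite G
  let _ : CommGroup (N ⧸ K.subgroupOf N) := { (inferInstance : Group (N ⧸ K.subgroupOf N)) with mul_comm := hq }
  let φ : N →* (N ⧸ K.subgroupOf N) := QuotientGroup.mk' (K.subgroupOf N)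
  have hkey : ∀ (k : ℕ) (g₀ : G), g₀⁻¹ * x ^ k * g₀ ∈ N → g₀⁻¹ * x ^ k * g₀ = x ^ k := by
    intro k g₀ h
    have hpow : x ^ k = x ^ (k % 3) := by
      conv_lhs => rw [← Nat.div_add_mod k 3, pow_add, pow_mul, hx3, one_pow, one_mul]
    rw [hpow] at h ⊢
    have hlt : k % 3 < 3 := Nat.mod_lt _ (by norm_num)
    interval_cases k % 3
    · simp
    · rw [pow_one] at h ⊢
      exact hw g₀ h
    · have h2 : (g₀⁻¹ * x ^ 2 * g₀) ^ 2 = g₀⁻¹ * x * g₀ := by
        calc (g₀⁻¹ * x ^ 2 * g₀) ^ 2 = g₀⁻¹ * (x ^ 3 * x) * g₀ := by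
              rw [pow_two]; group
          _ = g₀⁻¹ * x * g₀ := by rw [hx3, one_mul]
      have h3 : g₀⁻¹ * x * g₀ ∈ N := by rw [← h2]; exact N.pow_mem h 2
      have h4 := hw g₀ h3
      calc g₀⁻¹ * x ^ 2 * g₀ = (g₀⁻¹ * x * g₀) ^ 2 := by rw [pow_two, pow_two]; group
        _ = x ^ 2 := by rw [h4]
  have h1 := MonoidHom.transfer_eq_pow φ x hkey
  have h2 : MonoidHom.transfer φ x = 1 := H13.BrDeg.hom_trivial' (H13.BrDeg.perfect hG) _ x
  rw [h2] at h1
  have h3 : (⟨x ^ N.index, MonoidHom.transfer_eq_pow_aux x hkey⟩ : N) ∈ K.subgroupOf N := by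
    rw [← QuotientGroup.eq_one_iff]
    exact h1.symm
  rw [Subgroup.mem_subgroupOf] at h3
  apply hxK
  have h4 : x ^ N.index = x := by
    conv_lhs => rw [← Nat.div_add_mod N.index 3, pow_add, pow_mul, hx3, one_pow, one_mul, hidx, pow_one]
  change x ^ N.index ∈ K at h3
  rwa [h4] at h3

theorem not_sq (K : ℕ) (m : ℤ) (hK : 0 < K) (h : (K : ℤ) ^ 2 = 8 * m ^ 2) : False := by
  have hm : m ≠ 0 := by
    rintro rfl
    have : (K : ℤ) ^ 2 = 0 := by rw [h]; ring
    have := pow_eq_zero_iff two_ne_zero |>.1 this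
    omega
  have h1 : IsSquare (2 : ℚ) := by
    refine ⟨(K : ℚ) / (2 * m), ?_⟩
    have hm' : (m : ℚ) ≠ 0 := by exact_mod_cast hm
    have h2 : (K : ℚ) ^ 2 = 8 * (m : ℚ) ^ 2 := by exact_mod_cast h
    field_simp
    linarith
  revert h1
  norm_num

theorem ord4032 [IsSimpleGroup G] : Nat.card G ≠ 4032 := by
  classical
  intro hcard
  have _ := Fintype.ofFinite G
  have hG : ¬ IsMulCommutative G := H9.Small.not_comm (by rw [hcard]; norm_num)
  haveI : Fact (Nat.Prime 7) := ⟨by norm_num⟩
  haveI : Fact (Nat.Prime 3) := ⟨by norm_num⟩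
  haveI : Fact (Nat.Prime 2) := ⟨Nat.prime_two⟩
  obtain ⟨P⟩ : Nonempty (Sylow 7 G) := inferInstance
  obtain ⟨n, k, r', hnm, hn1, hn2, hnk, hP, hN, hidx, hNt, hfac, -, -, -, hPC⟩ :=
    setup hG 7 576 (by rw [hcard]) (by norm_num) P
  have hdvd : 7 ∣ Nat.card G := by rw [hcard]; norm_num
  have hr1 := H9.Small.relIndex_centralizer_dvd P hP
  have hr2 := H9.Small.relIndex_centralizer_ne_one hG hdvd P
  have hr3 := H9.Small.card_centralizer_mul (P : Subgroup G)
  rw [hN] at hr3
  set r := (Subgroup.centralizer ((P : Subgroup G) : Set G)).relIndex (Subgroup.normalizer ((P : Subgroup G) : Set G)) with hr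
  have hr4 : r = 2 ∨ r = 3 ∨ r = 6 := by
    have h3 : r ≤ 6 := Nat.le_of_dvd (by norm_num) hr1
    interval_cases r <;> omega
  obtain ⟨c, hc7⟩ : 7 ∣ Nat.card (Subgroup.centralizer ((P : Subgroup G) : Set G)) := by
    conv_lhs => rw [← hP]
    exact Subgroup.card_dvd_of_le hPC
  have hn : n = 8 ∨ n = 36 ∨ n = 64 ∨ n = 288 := by
    have h3 : n ≤ 576 := Nat.le_of_dvd (by norm_num) hnm
    have h4 : n = 7 * (n / 7) + 1 := by omega
    have h5 : ∀ q < 83, 576 % (7 * q + 1) = 0 → q = 0 ∨ q = 1 ∨ q = 5 ∨ q = 9 ∨ q = 41 := by decide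
    have h6 := h5 (n / 7) (by omega) (by rw [← h4]; exact Nat.mod_eq_zero_of_dvd hnm)
    omega
  rcases hn with h | h | h | h
  · -- 8
    subst h
    have hk : k = 72 := by omega
    rw [hk] at hr3
    obtain ⟨x, hxC, hx⟩ := exists_ord (centralizer ((P : Subgroup G) : Set G)) 3 (by
      rcases hr4 with h | h | h <;> rw [h] at hr3 <;> omega)
    have e := elt_data P hP hNt 3 1 x hxC (by
      rintro rfl
      rw [orderOf_one] at hx
      omega) (by rw [pow_one, ← hx]; exact pow_orderOf_eq_one x)
    rw [← hidx] at e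
    omega
  · -- 36
    subst h
    have hk : k = 16 := by omega
    rw [hk] at hr3 hN
    have hC : Nat.card (centralizer ((P : Subgroup G) : Set G)) = 56 := by
      rcases hr4 with h | h | h <;> rw [h] at hr3 <;> omega
    have hall : ∀ t ∈ centralizer ((P : Subgroup G) : Set G), orderOf t = 2 →
        Nat.card {g : G // IsConj t g ∧ g ∈ centralizer ((P : Subgroup G) : Set G)} = 4 := by
      intro t htC ht
      have hP7 : 7 ∣ Nat.card (centralizer ({t} : Set G)) := by
        conv_lhs => rw [← hP]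
        apply Subgroup.card_dvd_of_le
        intro y hy
        rw [Subgroup.mem_centralizer_singleton_iff]
        exact Subgroup.mem_centralizer_iff.1 htC y hy
      have ht1 : t ≠ 1 := by
        rintro rfl
        rw [orderOf_one] at ht
        omega
      have ht2 : t ^ 2 = 1 := by rw [← ht]; exact pow_orderOf_eq_one t
      have f1 := syl_mod P hP t htC
      obtain ⟨k1, f2⟩ := coset_sign hG (normalizer ((P : Subgroup G) : Set G)) t ht2
      have f3 := lt_index (normalizer ((P : Subgroup G) : Set G)) hNt t ht1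
      have f4 := fix_card (normalizer ((P : Subgroup G) : Set G)) t (Subgroup.centralizer_le_normalizer _ htC)
      rw [← hidx] at f2 f3
      rw [hN] at f4
      unfold Nat.ModEq at f1
      have hf8 : Nat.card (MulAction.fixedBy (G ⧸ normalizer ((P : Subgroup G) : Set G)) t) = 8 := by omega
      have f6 : Nat.card {g : G // IsConj t g ∧ g ∈ normalizer ((P : Subgroup G) : Set G)} =
          Nat.card {g : G // IsConj t g ∧ g ∈ centralizer ((P : Subgroup G) : Set G)} := by
        apply Nat.card_congr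
        apply Equiv.subtypeEquivRight
        intro g
        constructor
        · rintro ⟨h1, h2⟩
          refine ⟨h1, in_cent P hP t g h1 h2 ?_⟩
          rw [← hidx, hf8]
          norm_num
        · rintro ⟨h1, h2⟩
          exact ⟨h1, Subgroup.centralizer_le_normalizer _ h2⟩
      rw [hf8, f6] at f4
      have f7 := inv_count P hP (by norm_num) (centralizer ((P : Subgroup G) : Set G)) hPC le_rfl
      have f8 := inv_succ t ht (centralizer ((P : Subgroup G) : Set G))
      rw [hC] at f7
      have f9 := Subgroup.card_mul_index (centralizer ({t} : Set G))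
      rw [hcard] at f9
      have hKt := cent_ne_top hG t ht1
      set j := Nat.card {g : G // IsConj t g ∧ g ∈ centralizer ((P : Subgroup G) : Set G)} with hj
      have hj7 : j ≤ 7 := by omega
      clear f7 f8 f6 f3 f2 f1
      obtain ⟨u, hou, hz, hc⟩ := gen P hP
      obtain ⟨Ft, Fu, D, k3, g1, g2, g3, g4, g5, g6, g7, g8⟩ := two_fix hG 7 (centralizer ({t} : Set G)) hKt t u ht hou ((hc t).1 htC)
      set K := Nat.card (centralizer ({t} : Set G)) with hKd
      set I := (centralizer ({t} : Set G)).index with hI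
      obtain ⟨w, hw⟩ := hP7
      interval_cases j
      · omega
      · have : K = 896 := by omega
        rw [this] at f9; omega
      · have h448 : K = 448 := by omega
        rw [h448] at f9
        have hI9 : I = 9 := by omega
        rw [hI9] at g1 g2 g3 g4
        have hFu : Fu = 2 := by omega
        subst hFu
        exfalso
        clear f4 hw
        omega
      · omega
      · rfl
      · omega
      · omega
      · omega
    obtain ⟨t, htC, ht⟩ := exists_ord (centralizer ((P : Subgroup G) : Set G)) 2 (by rw [hC]; norm_num)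
    have h9 := parity (centralizer ((P : Subgroup G) : Set G)) (by rw [hC]; norm_num) 4 (by norm_num) hall t htC ht
    have f7 := inv_count P hP (by norm_num) (centralizer ((P : Subgroup G) : Set G)) hPC le_rfl
    rw [hC] at f7
    omega
  · -- 64
    subst h
    have hk : k = 9 := by omega
    rw [hk] at hr3 hN
    have hC : Nat.card (centralizer ((P : Subgroup G) : Set G)) = 21 := by
      rcases hr4 with h | h | h <;> rw [h] at hr3 <;> omega
    obtain ⟨x, hxC, hx⟩ := exists_ord (centralizer ((P : Subgroup G) : Set G)) 3 (by rw [hC]; norm_num)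
    have hx3 : x ^ 3 = 1 := by rw [← hx]; exact pow_orderOf_eq_one x
    have hx1 : x ≠ 1 := by
      rintro rfl
      rw [orderOf_one] at hx
      omega
    have hxN := Subgroup.centralizer_le_normalizer _ hxC
    have e := elt_data P hP hNt 3 1 x hxC hx1 (by rw [pow_one]; exact hx3)
    rw [← hidx] at e
    -- number of elements of `C(P)` with cube one
    have hcube : Nat.card {g : G // g ∈ centralizer ((P : Subgroup G) : Set G) ∧ g ^ 3 = 1} ≤ 3 := by
      have h1 : Nat.card {g : G // g ∈ centralizer ((P : Subgroup G) : Set G) ∧ g ^ 3 = 1} * Nat.card (P : Subgroup G) ≤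
          Nat.card (centralizer ((P : Subgroup G) : Set G)) := by
        rw [← Nat.card_prod]
        apply Nat.card_le_card_of_injective (fun q : {g : G // g ∈ centralizer ((P : Subgroup G) : Set G) ∧ g ^ 3 = 1} × (P : Subgroup G) =>
          (⟨q.1.1 * q.2.1, mul_mem q.1.2.1 (hPC q.2.2)⟩ : centralizer ((P : Subgroup G) : Set G)))
        rintro ⟨⟨a, ha, ha3⟩, ⟨u, hu⟩⟩ ⟨⟨b, hb, hb3⟩, ⟨v, hv⟩⟩ hab
        have h1 : a * u = b * v := congrArg Subtype.val hab
        have hau : Commute a u := ((Subgroup.mem_centralizer_iff.1 ha) u hu).symm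
        have hbv : Commute b v := ((Subgroup.mem_centralizer_iff.1 hb) v hv).symm
        have h2 : u ^ 3 = v ^ 3 := by
          have := congrArg (fun x => x ^ 3) h1
          simp only [hau.mul_pow, hbv.mul_pow, ha3, hb3, one_mul] at this
          exact this
        have hup : u ^ 7 = 1 := by
          have h := Subgroup.orderOf_dvd_natCard _ hu
          rw [hP] at h
          exact orderOf_dvd_iff_pow_eq_one.1 h
        have hvp : v ^ 7 = 1 := by
          have h := Subgroup.orderOf_dvd_natCard _ hv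
          rw [hP] at h
          exact orderOf_dvd_iff_pow_eq_one.1 h
        have h3 : u = v := by
          have e1 : u = (u ^ 3) ^ 5 := by
            rw [← pow_mul, show 3 * 5 = 7 * 2 + 1 by norm_num, pow_succ, pow_mul, hup, one_pow, one_mul]
          have e2 : v = (v ^ 3) ^ 5 := by
            rw [← pow_mul, show 3 * 5 = 7 * 2 + 1 by norm_num, pow_succ, pow_mul, hvp, one_pow, one_mul]
          rw [e1, e2, h2]
        subst h3
        have h4 : a = b := mul_right_cancel h1
        subst h4
        rfl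
      rw [hP, hC] at h1
      omega
    -- so these are the powers of x
    have hpow : ∀ g ∈ centralizer ((P : Subgroup G) : Set G), g ^ 3 = 1 → g ∈ zpowers x := by
      have hsub : ((zpowers x : Subgroup G) : Set G) ⊆ {g | g ∈ centralizer ((P : Subgroup G) : Set G) ∧ g ^ 3 = 1} := by
        intro g hg
        obtain ⟨i, rfl⟩ := mem_zpowers_iff.1 hg
        refine ⟨zpow_mem hxC i, ?_⟩
        rw [← zpow_natCast, ← zpow_mul, mul_comm, zpow_mul, zpow_natCast, hx3, one_zpow]
      have heq := Set.eq_of_subset_of_ncard_le hsub (by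
        change Nat.card {g : G // g ∈ centralizer ((P : Subgroup G) : Set G) ∧ g ^ 3 = 1} ≤ Nat.card (zpowers x)
        rw [Nat.card_zpowers, hx]; exact hcube) (Set.toFinite _)
      intro g hgC hg3
      have : g ∈ {g | g ∈ centralizer ((P : Subgroup G) : Set G) ∧ g ^ 3 = 1} := ⟨hgC, hg3⟩
      rw [← heq] at this
      exact this
    -- N centralises x
    have hNx : normalizer ((P : Subgroup G) : Set G) ≤ centralizer ({x} : Set G) := by
      intro g hg
      rw [Subgroup.mem_centralizer_singleton_iff]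
      have hgC : g * x * g⁻¹ ∈ centralizer ((P : Subgroup G) : Set G) := by
        rw [Subgroup.mem_centralizer_iff]
        intro y hy
        have h1 : g⁻¹ * y * g ∈ (P : Subgroup G) := by
          have := (Subgroup.mem_normalizer_iff.1 (inv_mem hg) y).1 hy
          rwa [inv_inv] at this
        have h2 := Subgroup.mem_centralizer_iff.1 hxC _ h1
        calc y * (g * x * g⁻¹) = g * ((g⁻¹ * y * g) * x) * g⁻¹ := by group
          _ = g * (x * (g⁻¹ * y * g)) * g⁻¹ := by rw [h2]
          _ = g * x * g⁻¹ * y := by group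
      have hg3 : (g * x * g⁻¹) ^ 3 = 1 := by
        have : (g * x * g⁻¹) ^ 3 = g * x ^ 3 * g⁻¹ := conj_pow
        rw [this, hx3]; group
      obtain ⟨i, hi⟩ := mem_zpowers_iff.1 (hpow _ hgC hg3)
      have hxz : ∀ i : ℤ, x ^ i = x ^ (i % 3) := by
        intro i
        conv_lhs => rw [← Int.mul_ediv_add_emod i 3, zpow_add, zpow_mul]
        have : x ^ (3 : ℤ) = 1 := by exact_mod_cast hx3
        rw [this, one_zpow, one_mul]
      rw [hxz] at hi
      have h0 : 0 ≤ i % 3 := Int.emod_nonneg _ (by norm_num)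
      have h3 : i % 3 < 3 := Int.emod_lt_of_pos _ (by norm_num)
      have hne : g * x * g⁻¹ ≠ 1 := by
        intro h
        apply hx1
        have e1 : x = g⁻¹ * (g * x * g⁻¹) * g := by group
        rw [e1, h]; group
      interval_cases (i % 3)
      · rw [zpow_zero] at hi
        exact absurd hi.symm hne
      · rw [zpow_one] at hi
        rw [eq_mul_inv_iff_mul_eq] at hi
        exact hi.symm
      · -- inverted: odd order
        have hinv : g * x * g⁻¹ = x⁻¹ := by
          rw [← hi]
          have : x ^ (2 : ℤ) * x = 1 := by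
            rw [← zpow_add_one]; exact_mod_cast hx3
          exact eq_inv_of_mul_eq_one_left this
        have h2 : Commute (g ^ 2) x := by
          have h2 : g ^ 2 * x * (g ^ 2)⁻¹ = x := by
            calc g ^ 2 * x * (g ^ 2)⁻¹ = g * (g * x * g⁻¹) * g⁻¹ := by rw [pow_two]; group
              _ = g * x⁻¹ * g⁻¹ := by rw [hinv]
              _ = (g * x * g⁻¹)⁻¹ := by group
              _ = x := by rw [hinv, inv_inv]
          rw [mul_inv_eq_iff_eq_mul] at h2
          exact h2
        have h63 : g ^ 63 = 1 := by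
          have h := Subgroup.orderOf_dvd_natCard _ hg
          rw [hN] at h
          exact orderOf_dvd_iff_pow_eq_one.1 h
        have h4 : g = (g ^ 2) ^ 32 := by
          rw [← pow_mul, show 2 * 32 = 63 + 1 by norm_num, pow_succ, h63, one_mul]
        have h5 : Commute g x := by
          rw [h4]; exact h2.pow_left 32
        exact h5.eq
    -- K = 63 and x is its only conjugate in N
    have hK63 : 63 ∣ Nat.card (centralizer ({x} : Set G)) := by
      have := Subgroup.card_dvd_of_le hNx
      rw [hN] at this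
      exact this
    have f4 := fix_card (normalizer ((P : Subgroup G) : Set G)) x hxN
    have f9 := Subgroup.card_mul_index (centralizer ({x} : Set G))
    rw [hcard] at f9
    rw [hN] at f4
    have f10 : 70 < Nat.card (MulAction.fixedBy (G ⧸ normalizer ((P : Subgroup G) : Set G)) x) * 7 →
        Nat.card {g : G // IsConj x g ∧ g ∈ normalizer ((P : Subgroup G) : Set G)} ≤ 2 := by
      intro hbig
      have h1 : Nat.card {g : G // IsConj x g ∧ g ∈ normalizer ((P : Subgroup G) : Set G)} + 1 ≤
          Nat.card {g : G // g ∈ centralizer ((P : Subgroup G) : Set G) ∧ g ^ 3 = 1} := by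
        rw [← Finite.card_option]
        have hcc : ∀ g : G, IsConj x g → g ^ 3 = 1 ∧ g ≠ 1 := by
          intro g hg
          obtain ⟨c, rfl⟩ := isConj_iff.1 hg
          constructor
          · have : (c * x * c⁻¹) ^ 3 = c * x ^ 3 * c⁻¹ := conj_pow
            rw [this, hx3]; group
          · intro h
            apply hx1
            have e1 : x = c⁻¹ * (c * x * c⁻¹) * c := by group
            rw [e1, h]; group
        apply Nat.card_le_card_of_injective (fun o : Option {g : G // IsConj x g ∧ g ∈ normalizer ((P : Subgroup G) : Set G)} =>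
          (o.elim ⟨1, one_mem _, one_pow 3⟩ (fun g => ⟨g.1, in_cent P hP x g.1 g.2.1 g.2.2 (by rw [← hidx]; omega), (hcc g.1 g.2.1).1⟩) :
            {g : G // g ∈ centralizer ((P : Subgroup G) : Set G) ∧ g ^ 3 = 1}))
        rintro (_ | ⟨a, ha⟩) (_ | ⟨b, hb⟩) hab
        · rfl
        · simp only [Option.elim, Subtype.mk.injEq] at hab
          exact absurd hab.symm (hcc b hb.1).2
        · simp only [Option.elim, Subtype.mk.injEq] at hab
          exact absurd hab (hcc a ha.1).2
        · simp only [Option.elim, Subtype.mk.injEq] at hab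
          subst hab
          rfl
      omega
    have hj1 : Nat.card {g : G // IsConj x g ∧ g ∈ normalizer ((P : Subgroup G) : Set G)} = 1 := by
      set f := Nat.card (MulAction.fixedBy (G ⧸ normalizer ((P : Subgroup G) : Set G)) x) with hf
      set j' := Nat.card {g : G // IsConj x g ∧ g ∈ normalizer ((P : Subgroup G) : Set G)} with hj'
      set K := Nat.card (centralizer ({x} : Set G)) with hK
      set I := (centralizer ({x} : Set G)).index with hI
      obtain ⟨w, hw⟩ := hK63
      have hw2 : w * j' = f := by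
        have : 63 * (w * j') = 63 * f := by
          calc 63 * (w * j') = K * j' := by rw [hw]; ring
            _ = f * (7 * 9) := f4.symm
            _ = 63 * f := by ring
        omega
      have hw3 : w * I = 64 := by
        have : 63 * (w * I) = 63 * 64 := by
          calc 63 * (w * I) = K * I := by rw [hw]; ring
            _ = 4032 := f9
        omega
      have hf3 : f = 1 ∨ f = 22 ∨ f = 43 := by omega
      rcases hf3 with h | h | h
      · rw [h] at hw2
        exact (mul_eq_one.1 hw2).2
      · have := f10 (by omega)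
        have h5 : w ∣ 64 := ⟨I, hw3.symm⟩
        rw [h] at hw2
        interval_cases j'
        · omega
        · rfl
        · have : w = 11 := by omega
          rw [this] at h5; omega
      · have := f10 (by omega)
        have h5 : w ∣ 64 := ⟨I, hw3.symm⟩
        rw [h] at hw2
        interval_cases j'
        · omega
        · rfl
        · omega
    -- transfer
    have hPN : (P : Subgroup G) ≤ normalizer ((P : Subgroup G) : Set G) := Subgroup.le_normalizer
    haveI : ((P : Subgroup G).subgroupOf (normalizer ((P : Subgroup G) : Set G))).Normal := Subgroup.normal_in_normalizer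
    have hq9 : Nat.card (normalizer ((P : Subgroup G) : Set G) ⧸ (P : Subgroup G).subgroupOf (normalizer ((P : Subgroup G) : Set G))) = 3 ^ 2 := by
      have h1 := Subgroup.card_mul_index ((P : Subgroup G).subgroupOf (normalizer ((P : Subgroup G) : Set G)))
      rw [Nat.card_congr (Subgroup.subgroupOfEquivOfLe hPN).toEquiv, hP, hN] at h1
      have h2 : ((P : Subgroup G).subgroupOf (normalizer ((P : Subgroup G) : Set G))).index = 9 := by omega
      rw [← Subgroup.index, h2]; norm_num
    refine transfer_contra hG (normalizer ((P : Subgroup G) : Set G)) (P : Subgroup G) hPN ?_ x hx3 hxN ?_ ?_ ?_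
    · intro a b
      exact (IsPGroup.isMulCommutative_of_card_eq_prime_sq (p := 3) hq9).is_comm.comm a b
    · intro h
      have := Subgroup.orderOf_dvd_natCard _ h
      rw [hP, hx] at this
      omega
    · intro g hg
      rw [Nat.card_eq_one_iff_unique] at hj1
      have h1 : IsConj x (g⁻¹ * x * g) := isConj_iff.2 ⟨g⁻¹, by rw [inv_inv]⟩
      have := hj1.1.elim ⟨g⁻¹ * x * g, h1, hg⟩ ⟨x, IsConj.refl _, hxN⟩
      exact congrArg Subtype.val this
    · rw [← hidx]
  · -- 288
    subst h
    have hk : k = 2 := by omega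
    rw [hk] at hr3 hN
    rw [hc7] at hr3
    have hcr : c * r = 2 := by
      have : 7 * (c * r) = 7 * 2 := by rw [← hr3]; ring
      omega
    have hr : r = 2 := by
      rcases hr4 with h | h | h <;> rw [h] at hcr <;> omega
    have hc1 : c = 1 := by rw [hr] at hcr; omega
    rw [hc1, mul_one] at hc7
    obtain ⟨s, hsN, hs⟩ := exists_ord (normalizer ((P : Subgroup G) : Set G)) 2 (by rw [hN]; norm_num)
    have hss : s * s = 1 := by rw [← pow_two, ← hs]; exact pow_orderOf_eq_one s
    have hsC : s ∉ centralizer ((P : Subgroup G) : Set G) := by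
      intro h
      have := Subgroup.orderOf_dvd_natCard _ h
      rw [hc7, hs] at this
      omega
    obtain ⟨X, Y, δ, v, ε, b, g, htX, hXc, hYc, hδt, hε, hX, ⟨kg, hg⟩, hgd, hg2, hrel, hsq, hvt, hXp, hgb, hrelv, hsum, hmain⟩ :=
      H13.SC.main hG 7 (by norm_num) P hP hc7 s hs (inverts P hP s hss hsN hsC) 2 hr
    have hYc3 : Y.card = 3 := by omega
    obtain ⟨χ, hχ⟩ : ∃ χ, X.erase (H10.BlockKer.triv G) = {χ} := by
      rw [← Finset.card_eq_one, Finset.card_erase_of_mem htX, hXc]
    have hχX : χ ∈ X := by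
      have : χ ∈ X.erase (H10.BlockKer.triv G) := by rw [hχ]; exact Finset.mem_singleton_self _
      exact Finset.mem_of_mem_erase this
    have hχt : χ ≠ H10.BlockKer.triv G := by
      have : χ ∈ X.erase (H10.BlockKer.triv G) := by rw [hχ]; exact Finset.mem_singleton_self _
      exact Finset.ne_of_mem_erase this
    rw [← Finset.add_sum_erase _ _ htX, hχ, Finset.sum_singleton, hδt, H13.BrDeg.deg_triv] at hrel
    rw [← Finset.add_sum_erase _ _ htX, hχ, Finset.sum_singleton, H13.BrDeg.deg_triv, hYc3, hcard] at hsq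
    rw [← Finset.add_sum_erase _ _ htX, hχ, Finset.sum_singleton, hδt, hvt] at hrelv
    rw [← Finset.add_sum_erase _ _ htX, hχ, Finset.sum_singleton, hδt, hvt, H13.BrDeg.deg_triv, hcard] at hmain
    have hf1 : charDegree (χ : G → ℂ) ≠ 1 := fun h => hχt (H13.BrDeg.lin_triv hG h)
    have hfd := H10.BlockGreen.charDegree_dvd_card χ
    rw [hcard] at hfd hgd
    obtain ⟨hδ, kf, hkf⟩ := hX χ hχX
    set f := charDegree (χ : G → ℂ) with hfdef
    clear_value f
    have hg36 : g ≤ 36 := by
      by_contra hlt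
      push Not at hlt
      have : 37 ^ 2 ≤ g ^ 2 := Nat.pow_le_pow_left hlt 2
      omega
    clear hsq hXp hgb hsum
    have hf37 : f ≤ 37 := by
      rcases hε with h | h <;> rcases hδ with h' | h' <;> rw [h, h'] at hrel <;> omega
    have hfg : f = 8 ∧ g = 9 ∧ δ χ = 1 ∧ ε = 1 := by
      rcases hδ with h' | h' <;> rw [h'] at hkf hrel ⊢ <;> rcases hε with h | h <;> rw [h] at hg hrel ⊢ <;>
        interval_cases f <;> first | omega | (interval_cases g <;> omega)
    obtain ⟨rfl, rfl, hδ1, hε1⟩ := hfg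
    rw [hδ1, hε1] at hrelv hmain
    have hb : b = 1 + v χ := by linarith
    rw [hb] at hmain
    have hKpos : 0 < Nat.card (centralizer ({s} : Set G)) := Nat.card_pos
    apply not_sq (Nat.card (centralizer ({s} : Set G))) (v χ - 8) hKpos
    have : ((Nat.card (centralizer ({s} : Set G)) : ℚ)) ^ 2 = 8 * ((v χ : ℚ) - 8) ^ 2 := by
      push_cast at hmain
      linarith
    exact_mod_cast this

end Cfsg.Agent.H13.Ord4032
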