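import Mathlib
import Cfsg.Agent.H13_PGr

/-! Prime graphs with vertices 2, 3, 5, 7, 13 and edges 2-3, 2-5, 2-7, 3-5. -/

namespace Cfsg.Agent.H13.PGs

/-- the prime graph has vertices 2, 3, 5, 7, 13 and edges 2-3, 2-5, 2-7, 3-5 -/
structure Has (X : Type*) [Group X] : Prop where
  card : ∀ p : ℕ, p.Prime → (p ∣ Nat.card X ↔ (p = 2 ∨ p = 3 ∨ p = 5 ∨ p = 7 ∨ p = 13))
  e6 : ∃ g : X, orderOf g = 6
  e10 : ∃ g : X, orderOf g = 10
  e14 : ∃ g : X, orderOf g = 14
  e15 : ∃ g : X, orderOf g = 15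
  n21 : ∀ g : X, orderOf g ≠ 21
  n26 : ∀ g : X, orderOf g ≠ 26
  n35 : ∀ g : X, orderOf g ≠ 35
  n39 : ∀ g : X, orderOf g ≠ 39
  n65 : ∀ g : X, orderOf g ≠ 65
  n91 : ∀ g : X, orderOf g ≠ 91

theorem Has.edge {X : Type*} [Group X] (h : Has X) (p q : ℕ) (hp : p.Prime) (hq : q.Prime) (hpq : p ≠ q) :
    (∃ g : X, orderOf g = p * q) ↔ (p * q = 6 ∨ p * q = 10 ∨ p * q = 14 ∨ p * q = 15) := by
  constructor
  · rintro ⟨g, hg⟩
    have h1 : p ∣ Nat.card X := ((dvd_mul_right p q).trans (dvd_of_eq hg.symm)).trans (orderOf_dvd_natCard g)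
    have h2 : q ∣ Nat.card X := ((dvd_mul_left q p).trans (dvd_of_eq hg.symm)).trans (orderOf_dvd_natCard g)
    rw [h.card p hp] at h1
    rw [h.card q hq] at h2
    have n21 := h.n21 g
    have n26 := h.n26 g
    have n35 := h.n35 g
    have n39 := h.n39 g
    have n65 := h.n65 g
    have n91 := h.n91 g
    rcases h1 with rfl | rfl | rfl | rfl | rfl <;> rcases h2 with rfl | rfl | rfl | rfl | rfl <;> omega
  · rintro (h1 | h1 | h1 | h1) <;> rw [h1]
    exacts [h.e6, h.e10, h.e14, h.e15]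

theorem same {X : Type*} [Group X] (hX : Has X) {Y : Type*} [Group Y] (hY : Has Y) :
    (∀ p : ℕ, p.Prime → (p ∣ Nat.card X ↔ p ∣ Nat.card Y)) ∧
      (∀ p q : ℕ, p.Prime → q.Prime → p ≠ q → ((∃ g : X, orderOf g = p * q) ↔ (∃ g : Y, orderOf g = p * q))) := by
  refine ⟨fun p hp => ?_, fun p q hp hq hpq => ?_⟩
  · rw [hX.card p hp, hY.card p hp]
  · rw [hX.edge p q hp hq hpq, hY.edge p q hp hq hpq]

open scoped Pointwise in
theorem sylow_conj {X : Type*} [Group X] [Finite X] {p : ℕ} [Fact p.Prime]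
    (hc : (Nat.card X).factorization p = 1) (y z : X) (hy : orderOf y = p) (hz : orderOf z = p) :
    ∃ (x : X) (n : ℤ), y ^ n = x * z * x⁻¹ := by
  have hcard : ∀ z : X, orderOf z = p → Nat.card (Subgroup.zpowers z) =
      p ^ (Nat.card X).factorization p := by
    intro z hz
    rw [Nat.card_zpowers, hz, hc, pow_one]
  let P : Sylow p X := Sylow.ofCard (Subgroup.zpowers y) (hcard y hy)
  let Q : Sylow p X := Sylow.ofCard (Subgroup.zpowers z) (hcard z hz)
  obtain ⟨x, hx⟩ := MulAction.exists_smul_eq X Q P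
  have h1 : x * z * x⁻¹ ∈ (P : Subgroup X) := by
    rw [← hx]
    change x * z * x⁻¹ ∈ (MulAut.conj x • (Q : Subgroup X) : Subgroup X)
    exact Subgroup.smul_mem_pointwise_smul z (MulAut.conj x) (Q : Subgroup X) (Subgroup.mem_zpowers z)
  have h2 : x * z * x⁻¹ ∈ Subgroup.zpowers y := h1
  obtain ⟨n, hn⟩ := h2
  exact ⟨x, n, hn⟩

theorem comm_of_order {X : Type*} [Group X] [Finite X] {p s : ℕ} [Fact p.Prime] (hs : s ≠ 0)
    (hc : (Nat.card X).factorization p = 1) (z : X) (hz : orderOf z = p) (g : X) (hg : orderOf g = p * s) :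
    ∃ u : X, orderOf u = s ∧ Commute u z := by
  have hp : p ≠ 0 := (Fact.out : p.Prime).ne_zero
  have hy : orderOf (g ^ s) = p := by
    rw [orderOf_pow_of_dvd hs (by rw [hg]; exact dvd_mul_left _ _), hg,
      Nat.mul_div_cancel _ (Nat.pos_of_ne_zero hs)]
  have hu : orderOf (g ^ p) = s := by
    rw [orderOf_pow_of_dvd hp (by rw [hg]; exact dvd_mul_right _ _), hg,
      Nat.mul_div_cancel_left _ (Nat.pos_of_ne_zero hp)]
  obtain ⟨x, n, hx⟩ := sylow_conj hc (g ^ s) z hy hz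
  refine ⟨x⁻¹ * g ^ p * x, ?_, ?_⟩
  · rw [← hu]
    have := (MulEquiv.orderOf_eq (MulAut.conj x⁻¹) (g ^ p))
    rw [MulAut.conj_apply, inv_inv] at this
    exact this
  · have h1 : z = x⁻¹ * (g ^ s) ^ n * x := by rw [hx]; group
    rw [h1]
    have h2 : Commute (g ^ p) ((g ^ s) ^ n) := ((Commute.refl g).pow_pow p s).zpow_right n
    change x⁻¹ * g ^ p * x * (x⁻¹ * (g ^ s) ^ n * x) = x⁻¹ * (g ^ s) ^ n * x * (x⁻¹ * g ^ p * x)
    have h3 : x⁻¹ * g ^ p * x * (x⁻¹ * (g ^ s) ^ n * x) = x⁻¹ * (g ^ p * (g ^ s) ^ n) * x := by group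
    have h4 : x⁻¹ * (g ^ s) ^ n * x * (x⁻¹ * g ^ p * x) = x⁻¹ * ((g ^ s) ^ n * g ^ p) * x := by group
    rw [h3, h4, h2.eq]

theorem factorization_one {n p k : ℕ} (hp : p.Prime) (hn : n = p * k) (hk : ¬ p ∣ k) : n.factorization p = 1 := by
  have hk0 : k ≠ 0 := by rintro rfl; exact hk (dvd_zero p)
  rw [hn, Nat.factorization_mul hp.ne_zero hk0, Finsupp.add_apply, hp.factorization, Finsupp.single_eq_same,
    Nat.factorization_eq_zero_of_not_dvd hk]

section

variable {N G : Type*} [CommGroup N] [Group G] [Finite N] [Finite G] (φ : G →* MulAut N) {r : ℕ} [Fact r.Prime]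

/-- no element of order `s * r` -/
theorem no_mixed (hN : ∀ x : N, x ^ r = 1) {s : ℕ} (hp : s.Prime) (hpr : s ≠ r)
    (hG : ∀ g : G, orderOf g ≠ s * r) (h1 : ∀ y : G, orderOf y = s → ∀ x : N, φ y x = x → x = 1)
    (h : N ⋊[φ] G) : orderOf h ≠ s * r := by
  intro hh
  have hrp : r.Prime := Fact.out
  have hy : orderOf (h ^ r) = s := by
    rw [orderOf_pow_of_dvd hrp.ne_zero (by rw [hh]; exact dvd_mul_left _ _), hh,
      Nat.mul_div_cancel _ hrp.pos]
  have hz : orderOf (h ^ s) = r := by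
    rw [orderOf_pow_of_dvd hp.ne_zero (by rw [hh]; exact dvd_mul_right _ _), hh,
      Nat.mul_div_cancel_left _ hp.pos]
  have hy2 : orderOf (h ^ r).right = s := by
    rw [PGr.order_right φ hN _ (by rw [hy]; exact (Nat.coprime_primes hp hrp).2 hpr), hy]
  by_cases hz2 : (h ^ s).right = 1
  · have h3 : h ^ s = SemidirectProduct.inl (h ^ s).left := by
      ext
      · rfl
      · rw [hz2]; rfl
    have hcomm : h ^ r * h ^ s = h ^ s * h ^ r := by rw [← pow_add, ← pow_add, add_comm]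
    have h4 := congrArg SemidirectProduct.left hcomm
    rw [SemidirectProduct.mul_left, SemidirectProduct.mul_left, hz2, map_one, MulAut.one_apply,
      mul_comm (h ^ s).left] at h4
    have h5 := h1 _ hy2 _ (mul_left_cancel h4)
    have h6 : h ^ s = 1 := by rw [h3, h5, map_one]
    rw [h6, orderOf_one] at hz
    exact hrp.one_lt.ne hz
  · apply hG h.right
    have e1 : (h ^ s).right = h.right ^ s := map_pow SemidirectProduct.rightHom h s
    have e2 : (h ^ r).right = h.right ^ r := map_pow SemidirectProduct.rightHom h r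
    have hd : orderOf h.right ∣ s * r := by
      rw [← hh]; exact orderOf_map_dvd SemidirectProduct.rightHom h
    have hp1 : s ∣ orderOf h.right := by
      rw [← hy2, e2]; exact orderOf_pow_dvd _
    have hr1 : r ∣ orderOf h.right := by
      have h7 : orderOf (h.right ^ s) ∣ r := by
        rw [← hz, ← e1]; exact orderOf_map_dvd SemidirectProduct.rightHom (h ^ s)
      rcases (Nat.dvd_prime hrp).1 h7 with h8 | h8
      · rw [orderOf_eq_one_iff, ← e1] at h8
        exact absurd h8 hz2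
      · rw [← h8]; exact orderOf_pow_dvd _
    exact Nat.dvd_antisymm hd (Nat.Coprime.mul_dvd_of_dvd_of_dvd ((Nat.coprime_primes hp hrp).2 hpr) hp1 hr1)

omit [Finite N] [Finite G] in
/-- a fixed point gives an element of order `s * r` -/
theorem ex_mixed (hN : ∀ x : N, x ^ r = 1) {s : ℕ} (hp : s.Prime) (hpr : s ≠ r) (y : G) (hy : orderOf y = s)
    (x : N) (hx : φ y x = x) (hx1 : x ≠ 1) : ∃ h : N ⋊[φ] G, orderOf h = s * r := by
  have hrp : r.Prime := Fact.out
  have hxo : orderOf x = r := orderOf_eq_prime (hN x) hx1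
  refine ⟨SemidirectProduct.inr y * SemidirectProduct.inl x, ?_⟩
  have hc : Commute (SemidirectProduct.inr y : N ⋊[φ] G) (SemidirectProduct.inl x) := by
    change SemidirectProduct.inr y * SemidirectProduct.inl x = SemidirectProduct.inl x * SemidirectProduct.inr y
    ext
    · simp [hx]
    · simp
  have o1 : orderOf (SemidirectProduct.inr y : N ⋊[φ] G) = s := by
    rw [orderOf_injective _ SemidirectProduct.inr_injective, hy]
  have o2 : orderOf (SemidirectProduct.inl x : N ⋊[φ] G) = r := by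
    rw [orderOf_injective _ SemidirectProduct.inl_injective, hxo]
  rw [hc.orderOf_mul_eq_mul_orderOf_of_coprime (by rw [o1, o2]; exact (Nat.coprime_primes hp hrp).2 hpr), o1, o2]

/-- the powers `N^k ⋊ G` all have the given prime graph -/
theorem has_pow (k : ℕ) [NeZero k] (φ : G →* MulAut N) (hN : ∀ x : N, x ^ 2 = 1)
    (hc : ∀ p : ℕ, p.Prime → (p ∣ Nat.card G ↔ (p = 2 ∨ p = 3 ∨ p = 5 ∨ p = 7 ∨ p = 13)))
    (e6 : ∃ g : G, orderOf g = 6) (e15 : ∃ g : G, orderOf g = 15)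
    (e10 : ∃ y : G, ∃ x : N, orderOf y = 5 ∧ φ y x = x ∧ x ≠ 1)
    (e14 : ∃ y : G, ∃ x : N, orderOf y = 7 ∧ φ y x = x ∧ x ≠ 1)
    (n21 : ∀ g : G, orderOf g ≠ 21) (n26 : ∀ g : G, orderOf g ≠ 26)
    (f13 : ∀ y : G, orderOf y = 13 → ∀ x : N, φ y x = x → x = 1)
    (n35 : ∀ g : G, orderOf g ≠ 35) (n39 : ∀ g : G, orderOf g ≠ 39)
    (n65 : ∀ g : G, orderOf g ≠ 65) (n91 : ∀ g : G, orderOf g ≠ 91) :
    Has ((Fin k → N) ⋊[PGr.powAct φ k] G) := by
  have : Fact (Nat.Prime 2) := ⟨Nat.prime_two⟩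
  have hN' : ∀ x : Fin k → N, x ^ 2 = 1 := by
    intro x; ext i; exact hN (x i)
  have hodd : ∀ n : ℕ, n.Coprime 2 → (∀ g : G, orderOf g ≠ n) → ∀ h : (Fin k → N) ⋊[PGr.powAct φ k] G, orderOf h ≠ n := by
    intro n hn hG h hh
    apply hG h.right
    rw [PGr.order_right _ hN' h (by rw [hh]; exact hn), hh]
  have hinr : ∀ n : ℕ, (∃ g : G, orderOf g = n) → ∃ h : (Fin k → N) ⋊[PGr.powAct φ k] G, orderOf h = n := by
    rintro n ⟨g, hg⟩
    exact ⟨SemidirectProduct.inr g, by rw [orderOf_injective _ SemidirectProduct.inr_injective, hg]⟩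
  have hmix : ∀ s : ℕ, s.Prime → s ≠ 2 → (∃ y : G, ∃ x : N, orderOf y = s ∧ φ y x = x ∧ x ≠ 1) →
      ∃ h : (Fin k → N) ⋊[PGr.powAct φ k] G, orderOf h = s * 2 := by
    rintro s hs hs2 ⟨y, x, hy, hx, hx1⟩
    refine ex_mixed (PGr.powAct φ k) hN' hs hs2 y hy (fun _ => x) ?_ ?_
    · ext i
      rw [PGr.powAct_apply, hx]
    · intro h
      exact hx1 (congrFun h 0)
  refine ⟨?_, hinr 6 e6, hmix 5 (by norm_num) (by norm_num) e10, hmix 7 (by norm_num) (by norm_num) e14,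
    hinr 15 e15, hodd 21 (by norm_num) n21, ?_, hodd 35 (by norm_num) n35, hodd 39 (by norm_num) n39,
    hodd 65 (by norm_num) n65, hodd 91 (by norm_num) n91⟩
  · intro p hp
    rw [← hc p hp]
    exact (PGr.dvd_card (PGr.powAct φ k) hN' ((hc 2 (by norm_num)).2 (Or.inl rfl)) p hp).symm
  · refine no_mixed (PGr.powAct φ k) hN' (s := 13) (by norm_num) (by norm_num) n26 ?_
    intro y hy x hx
    ext i
    exact f13 y hy (x i) (by rw [← PGr.powAct_apply φ k y x i, hx])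

end

end Cfsg.Agent.H13.PGs
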