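import Mathlib
import Cfsg.Agent.H29_Trv

/-! `SL_n` is generated by three conjugate regular unipotent elements. -/

namespace Cfsg.Agent.H13.RU

open Matrix H29.Trv

section

variable {m : ℕ} {F : Type*} [Field F]

/-- the nilpotent Jordan block -/
def N (m : ℕ) (F : Type*) [Field F] : Matrix (Fin (m + 3)) (Fin (m + 3)) F :=
  fun i j => if (j : ℕ) = i + 1 then 1 else 0

theorem N_apply (i j : Fin (m + 3)) : N m F i j = if (j : ℕ) = i + 1 then 1 else 0 := rfl

theorem N_pow (k : ℕ) (i j : Fin (m + 3)) : (N m F ^ k) i j = if (j : ℕ) = i + k then 1 else 0 := by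
  induction k generalizing i j with
  | zero =>
    rw [pow_zero, Matrix.one_apply]
    congr 1
    rw [Fin.ext_iff, add_zero]
    exact propext eq_comm
  | succ k ih =>
    rw [pow_succ, Matrix.mul_apply]
    by_cases h : (j : ℕ) = i + (k + 1)
    · rw [if_pos h, Finset.sum_eq_single (⟨i + k, by omega⟩ : Fin (m + 3))]
      · rw [ih, if_pos rfl, one_mul]
        unfold N
        rw [if_pos]
        simp only
        omega
      · intro l _ hl
        rw [ih, if_neg, zero_mul]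
        intro h2
        apply hl
        exact Fin.ext h2
      · intro h2; exact absurd (Finset.mem_univ _) h2
    · rw [if_neg h]
      refine Finset.sum_eq_zero fun l _ => ?_
      rw [ih]
      unfold N
      by_cases h1 : (l : ℕ) = i + k
      · rw [if_neg (show ¬ ((j : ℕ) = l + 1) by omega), mul_zero]
      · rw [if_neg h1, zero_mul]

theorem det_u : (1 + N m F).det = 1 := by
  rw [Matrix.det_of_isUpperTriangular]
  · refine Finset.prod_eq_one fun i _ => ?_
    rw [Matrix.add_apply, Matrix.one_apply_eq]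
    unfold N
    rw [if_neg (by omega), add_zero]
  · intro i j hij
    have h : j < i := hij
    rw [Matrix.add_apply, Matrix.one_apply_ne (by exact fun h2 => absurd h2 h.ne'), zero_add]
    unfold N
    rw [if_neg]
    have : (j : ℕ) < i := h
    omega

abbrev SLm (m : ℕ) (F : Type*) [Field F] := Matrix.SpecialLinearGroup (Fin (m + 3)) F

/-- the regular unipotent -/
def u (m : ℕ) (F : Type*) [Field F] : SLm m F := ⟨1 + N m F, det_u⟩

theorem u_nilp : IsNilpotent ((u m F).1 - 1) := by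
  refine ⟨m + 3, ?_⟩
  change (1 + N m F - 1) ^ (m + 3) = 0
  rw [add_sub_cancel_left]
  ext i j
  rw [N_pow, if_neg (by omega)]
  rfl

theorem u_reg : ((u m F).1 - 1) ^ (m + 3 - 1) ≠ 0 := by
  change (1 + N m F - 1) ^ (m + 3 - 1) ≠ 0
  rw [add_sub_cancel_left]
  intro h
  have h1 := congrFun (congrFun h 0) (Fin.last (m + 2))
  rw [N_pow, if_pos (by simp)] at h1
  exact one_ne_zero h1

abbrev e0 (m : ℕ) (F : Type*) [Field F] : Fin (m + 3) → F := Pi.single 0 1

theorem e0_ne {i : Fin (m + 3)} (hi : i ≠ 0) : e0 m F i = 0 := Pi.single_eq_of_ne hi 1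

/-- the action of `u` -/
theorem u_apply (v : Fin (m + 3) → F) (i : Fin (m + 3)) (hi : (i : ℕ) + 1 < m + 3) :
    ((u m F).1 *ᵥ v) i = v i + v ⟨i + 1, hi⟩ := by
  change ((1 + N m F) *ᵥ v) i = _
  rw [add_mulVec, one_mulVec, Pi.add_apply]
  congr 1
  change ∑ j, N m F i j * v j = _
  rw [Finset.sum_eq_single ⟨i + 1, hi⟩]
  · rw [N_apply, if_pos rfl, one_mul]
  · intro j _ hj
    rw [N_apply, if_neg, zero_mul]
    intro h
    exact hj (Fin.ext h)
  · intro h; exact absurd (Finset.mem_univ _) h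

theorem u_apply_last (v : Fin (m + 3) → F) : ((u m F).1 *ᵥ v) (Fin.last (m + 2)) = v (Fin.last (m + 2)) := by
  change ((1 + N m F) *ᵥ v) _ = _
  rw [add_mulVec, one_mulVec, Pi.add_apply]
  have : (N m F *ᵥ v) (Fin.last (m + 2)) = 0 := by
    change ∑ j, N m F (Fin.last (m + 2)) j * v j = _
    refine Finset.sum_eq_zero fun j _ => ?_
    rw [N_apply, if_neg, zero_mul]
    rw [Fin.val_last]
    omega
  rw [this, add_zero]

/-- an elementary matrix `1 + c E_{ij}` -/
def el (i j : Fin (m + 3)) (hij : i ≠ j) (c : F) : SLm m F := SpecialLinearGroup.transvection hij c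

theorem el_apply (i j : Fin (m + 3)) (hij : i ≠ j) (c : F) (v : Fin (m + 3) → F) :
    (el i j hij c).1 *ᵥ v = v + (c * v j) • Pi.single i 1 := by
  change (1 + Matrix.single i j c) *ᵥ v = _
  rw [add_mulVec, one_mulVec, single_mulVec]
  congr 1
  ext k
  by_cases hk : k = i
  · subst hk; simp
  · simp [hk]


/-- `x = 1 + E_{n1}` -/
def x (m : ℕ) (F : Type*) [Field F] : SLm m F := el (Fin.last (m + 2)) 0 (Fin.last_pos.ne') 1

theorem x_apply (v : Fin (m + 3) → F) : (x m F).1 *ᵥ v = v + (v 0) • Pi.single (Fin.last (m + 2)) 1 := by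
  unfold x
  rw [el_apply, one_mul]

def w (m : ℕ) (F : Type*) [Field F] : SLm m F := x m F * u m F * (x m F)⁻¹

/-- functional `e_k^*` -/
abbrev pr (k : Fin (m + 3)) : (Fin (m + 3) → F) →ₗ[F] F := LinearMap.proj k

/-- `y = 1 + c E_{1,n-1}` -/
def y (m : ℕ) {F : Type*} [Field F] (c : F) : SLm m F := el 0 ⟨m + 1, by omega⟩ (by
  intro h; have := congrArg Fin.val h; simp at this) c

def t (m : ℕ) {F : Type*} [Field F] (c : F) : SLm m F := el 0 (Fin.last (m + 2)) (Fin.last_pos.ne) c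

theorem ext_mv {g h : SLm m F} (H : ∀ v, g.1 *ᵥ v = h.1 *ᵥ v) : g = h :=
  Subtype.ext (H29.Trv.ext_mulVec H)

theorem mul_mv (g h : SLm m F) (v : Fin (m + 3) → F) : (g * h).1 *ᵥ v = g.1 *ᵥ (h.1 *ᵥ v) := by
  rw [mulVec_mulVec]; rfl

/-- `y u = u t y` -/
theorem y_u (c : F) : y m c * u m F = u m F * t m c * y m c := by
  apply ext_mv
  intro v
  rw [mul_mv, mul_mv, mul_mv]
  unfold y t
  rw [el_apply, el_apply, el_apply]
  rw [mulVec_add, mulVec_add, mulVec_smul, mulVec_smul]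
  have h1 : (u m F).1 *ᵥ (Pi.single 0 1) = Pi.single 0 1 := by
    ext i
    by_cases hi : (i : ℕ) + 1 < m + 3
    · rw [u_apply _ i hi]
      have : (⟨i + 1, hi⟩ : Fin (m + 3)) ≠ 0 := by
        intro h; have := congrArg Fin.val h; simp at this
      rw [Pi.single_eq_of_ne this, add_zero]
    · have : i = Fin.last (m + 2) := by
        apply Fin.ext; rw [Fin.val_last]; omega
      rw [this, u_apply_last]
  rw [h1, u_apply v ⟨m + 1, by omega⟩ (by simp)]
  have h2 : (v + (c * v ⟨m + 1, by omega⟩) • (Pi.single 0 1 : Fin (m + 3) → F)) (Fin.last (m + 2)) = v (Fin.last (m + 2)) := by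
    rw [Pi.add_apply, Pi.smul_apply, Pi.single_eq_of_ne (Fin.last_pos.ne'), smul_zero, add_zero]
  rw [h2]
  have h3 : (⟨(⟨m + 1, by omega⟩ : Fin (m + 3)) + 1, by simp⟩ : Fin (m + 3)) = Fin.last (m + 2) := by
    apply Fin.ext; simp
  rw [h3]
  module


theorem w_x (v : Fin (m + 3) → F) : (w m F).1 *ᵥ ((x m F).1 *ᵥ v) = (x m F).1 *ᵥ ((u m F).1 *ᵥ v) := by
  rw [← mul_mv, ← mul_mv]
  unfold w
  rw [inv_mul_cancel_right]

theorem inv_mv (g : SLm m F) (v : Fin (m + 3) → F) : (g⁻¹).1 *ᵥ (g.1 *ᵥ v) = v := by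
  rw [← mul_mv, inv_mul_cancel]; exact one_mulVec v

theorem mv_inv (g : SLm m F) (v : Fin (m + 3) → F) : g.1 *ᵥ ((g⁻¹).1 *ᵥ v) = v := by
  rw [← mul_mv, mul_inv_cancel]; exact one_mulVec v

theorem last_ne_zero : (Fin.last (m + 2) : Fin (m + 3)) ≠ 0 := Fin.last_pos.ne'

/-- `e_n^* ∘ w = e_n^* + e_2^*` -/
theorem w_last (v : Fin (m + 3) → F) : ((w m F).1 *ᵥ v) (Fin.last (m + 2)) = v (Fin.last (m + 2)) + v 1 := by
  obtain ⟨v', rfl⟩ : ∃ v', v = (x m F).1 *ᵥ v' := ⟨((x m F)⁻¹).1 *ᵥ v, (mv_inv _ _).symm⟩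
  rw [w_x, x_apply, x_apply]
  simp only [Pi.add_apply, Pi.smul_apply, Pi.single_eq_same, smul_eq_mul, mul_one]
  rw [u_apply_last, u_apply v' 0 (by simp)]
  have h1 : (⟨((0 : Fin (m + 3)) : ℕ) + 1, by simp⟩ : Fin (m + 3)) = 1 := by
    apply Fin.ext; simp
  rw [h1, Pi.single_eq_of_ne (show (1 : Fin (m + 3)) ≠ Fin.last (m + 2) by
    intro h; have := congrArg Fin.val h; simp at this), mul_zero, add_zero]
  ring

def c0 (m : ℕ) (F : Type*) [Field F] : F := (((w m F)⁻¹).1 *ᵥ e0 m F) (Fin.last (m + 2))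

theorem c0_ne : c0 m F ≠ 0 := by
  intro hc
  set z := ((w m F)⁻¹).1 *ᵥ e0 m F with hz
  have h1 : (w m F).1 *ᵥ z = e0 m F := mv_inv _ _
  obtain ⟨z', hz'⟩ : ∃ z', z = (x m F).1 *ᵥ z' := ⟨((x m F)⁻¹).1 *ᵥ z, (mv_inv _ _).symm⟩
  rw [hz', w_x, x_apply] at h1
  -- the coordinates of `u z'`
  have g0 := congrFun h1 0
  have gl := congrFun h1 (Fin.last (m + 2))
  simp only [Pi.add_apply, Pi.smul_apply, smul_eq_mul, Pi.single_eq_same, mul_one] at g0 gl
  rw [Pi.single_eq_of_ne (Ne.symm last_ne_zero), mul_zero, add_zero] at g0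
  rw [g0, u_apply_last, e0_ne last_ne_zero] at gl
  rw [u_apply z' 0 (by simp)] at g0
  have h01 : (⟨((0 : Fin (m + 3)) : ℕ) + 1, by simp⟩ : Fin (m + 3)) = 1 := by
    apply Fin.ext; simp
  rw [h01] at g0
  have hc' : z (Fin.last (m + 2)) = 0 := hc
  rw [hz', x_apply, Pi.add_apply, Pi.smul_apply, Pi.single_eq_same, smul_eq_mul, mul_one] at hc'
  have h1' : z' 1 = 0 := by
    have : z' 0 = 1 := by linear_combination hc' - gl
    linear_combination g0 - this
  -- all coordinates from 1 on vanish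
  have hall : ∀ k : ℕ, ∀ hk : k + 1 < m + 3, z' ⟨k + 1, hk⟩ = 0 := by
    intro k
    induction k with
    | zero =>
      intro hk
      exact h1'
    | succ k ih =>
      intro hk
      have h2 := ih (by omega)
      have h3 := congrFun h1 ⟨k + 1, by omega⟩
      rw [Pi.add_apply, u_apply z' ⟨k + 1, by omega⟩ (by simpa using hk), Pi.smul_apply,
        Pi.single_eq_of_ne, smul_zero, add_zero, h2, zero_add, e0_ne] at h3
      · exact h3
      · intro h; have := congrArg Fin.val h; simp at this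
      · intro h; have := congrArg Fin.val h; simp at this; omega
  have h4 := hall (m + 1) (by omega)
  have h5 : (⟨m + 1 + 1, by omega⟩ : Fin (m + 3)) = Fin.last (m + 2) := rfl
  rw [h5] at h4
  rw [h4, zero_add] at gl
  exact one_ne_zero gl

/-! the group generated -/

/-- the transvection relation for a subgroup of `SL` -/
abbrev TT (H : Subgroup (SLm m F)) (v : Fin (m + 3) → F) (φ : (Fin (m + 3) → F) →ₗ[F] F) : Prop :=
  T (H.map (SpecialLinearGroup.toGL (n := Fin (m + 3)) (R := F))) v φ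

theorem TT_conj {H : Subgroup (SLm m F)} {v : Fin (m + 3) → F} {φ : (Fin (m + 3) → F) →ₗ[F] F} (h : TT H v φ)
    {g : SLm m F} (hg : g ∈ H) : TT H ((g⁻¹).1 *ᵥ v) (φ ∘ₗ Matrix.mulVecLin g.1) := by
  have := T.conj h (g := SpecialLinearGroup.toGL g⁻¹) (Subgroup.mem_map_of_mem _ (inv_mem hg))
  rw [← map_inv, inv_inv] at this
  exact this

theorem pr_u (k : Fin (m + 3)) (hk : (k : ℕ) + 1 < m + 3) :
    (pr k : (Fin (m + 3) → F) →ₗ[F] F) ∘ₗ Matrix.mulVecLin (u m F).1 = pr k + pr ⟨k + 1, hk⟩ := by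
  refine LinearMap.ext fun v => ?_
  exact u_apply v k hk

theorem pr_u_last : (pr (Fin.last (m + 2)) : (Fin (m + 3) → F) →ₗ[F] F) ∘ₗ Matrix.mulVecLin (u m F).1 =
    pr (Fin.last (m + 2)) := by
  refine LinearMap.ext fun v => ?_
  exact u_apply_last v

theorem pr_w_last : (pr (Fin.last (m + 2)) : (Fin (m + 3) → F) →ₗ[F] F) ∘ₗ Matrix.mulVecLin (w m F).1 =
    pr (Fin.last (m + 2)) + pr 1 := by
  refine LinearMap.ext fun v => ?_
  exact w_last v

theorem u_e0 : (u m F).1 *ᵥ e0 m F = e0 m F := by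
  ext i
  by_cases hi : (i : ℕ) + 1 < m + 3
  · rw [u_apply _ i hi]
    have : (⟨i + 1, hi⟩ : Fin (m + 3)) ≠ 0 := by
      intro h; have := congrArg Fin.val h; simp at this
    rw [e0_ne this, add_zero]
  · have : i = Fin.last (m + 2) := by
      apply Fin.ext; rw [Fin.val_last]; omega
    rw [this, u_apply_last]

theorem uinv_e0 : ((u m F)⁻¹).1 *ᵥ e0 m F = e0 m F := by
  conv_lhs => rw [← u_e0]
  rw [inv_mv]

section grp

variable (H : Subgroup (SLm m F)) (hu : u m F ∈ H) (hw : w m F ∈ H)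

include hu in
theorem phi_u {φ : (Fin (m + 3) → F) →ₗ[F] F} (h : TT H (e0 m F) φ) :
    TT H (e0 m F) (φ ∘ₗ Matrix.mulVecLin (u m F).1) := by
  have := TT_conj h hu
  rwa [uinv_e0] at this

include hu in
theorem phi_step {c : F} {k : Fin (m + 3)} (hk : (k : ℕ) + 1 < m + 3) (h : TT H (e0 m F) (c • pr k)) :
    TT H (e0 m F) (c • pr ⟨k + 1, hk⟩) := by
  have h1 := phi_u H hu h
  rw [LinearMap.smul_comp, pr_u k hk] at h1
  have h2 := h1.add_right h.neg
  have h3 : c • (pr k + pr ⟨k + 1, hk⟩ : (Fin (m + 3) → F) →ₗ[F] F) + -(c • pr k) = c • pr ⟨k + 1, hk⟩ := by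
    module
  rwa [h3] at h2

include hu in
theorem phi_up {c : F} (a : ℕ) (ha : a < m + 3) (h : TT H (e0 m F) (c • pr ⟨a, ha⟩)) (b : ℕ) (hb : b < m + 3) (hab : a ≤ b) :
    TT H (e0 m F) (c • pr ⟨b, hb⟩) := by
  induction b with
  | zero =>
    have : a = 0 := by omega
    subst this; exact h
  | succ b ih =>
    rcases Nat.lt_or_ge b a with h1 | h1
    · have : a = b + 1 := by omega
      subst this; exact h
    · exact phi_step H hu (k := ⟨b, by omega⟩) hb (ih (by omega) h1)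

include hw in
theorem prod_mem {α β : F} (hα : TT H (e0 m F) (α • pr (Fin.last (m + 2))))
    (hβ : TT H (e0 m F) (β • pr (Fin.last (m + 2)))) :
    TT H (e0 m F) ((c0 m F * β * α) • (pr (Fin.last (m + 2)) + pr 1)) := by
  have h1 := TT_conj hα hw
  rw [LinearMap.smul_comp, pr_w_last] at h1
  have h2 : (α • (pr (Fin.last (m + 2)) + pr 1) : (Fin (m + 3) → F) →ₗ[F] F) (e0 m F) = 0 := by
    simp only [LinearMap.smul_apply, LinearMap.add_apply, LinearMap.proj_apply]
    rw [e0_ne last_ne_zero, e0_ne]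
    · simp
    · intro h; have := congrArg Fin.val h; simp at this
  have h3 := T.comm h1 hβ h2
  have h4 : (β • (pr (Fin.last (m + 2)) : (Fin (m + 3) → F) →ₗ[F] F)) (((w m F)⁻¹).1 *ᵥ e0 m F) = β * c0 m F := rfl
  rw [h4, smul_smul] at h3
  have h5 : β * c0 m F * α = c0 m F * β * α := by ring
  rwa [h5] at h3

include hu hw in
theorem one_last {α β : F} (hα : TT H (e0 m F) (α • pr (Fin.last (m + 2))))
    (hβ : TT H (e0 m F) (β • pr (Fin.last (m + 2)))) :
    TT H (e0 m F) ((c0 m F * β * α) • pr (Fin.last (m + 2))) ∧ TT H (e0 m F) ((c0 m F * β * α) • pr 1) := by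
  set c := c0 m F * β * α with hc
  have h1 := prod_mem H hw hα hβ
  rw [← hc] at h1
  have h2 := phi_u H hu h1
  have h10 : (⟨1, by omega⟩ : Fin (m + 3)) = 1 := by apply Fin.ext; simp
  have e1 : (pr 1 : (Fin (m + 3) → F) →ₗ[F] F) ∘ₗ Matrix.mulVecLin (u m F).1 = pr 1 + pr ⟨2, by omega⟩ := by
    rw [← h10]
    exact pr_u ⟨1, by omega⟩ (by simp)
  rw [LinearMap.smul_comp, LinearMap.add_comp, pr_u_last, e1] at h2
  have h3 := h2.add_right h1.neg
  have h4 : c • (pr (Fin.last (m + 2)) + (pr 1 + pr ⟨2, by omega⟩)) + -(c • (pr (Fin.last (m + 2)) + pr 1)) =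
      (c • pr ⟨2, by omega⟩ : (Fin (m + 3) → F) →ₗ[F] F) := by module
  rw [h4] at h3
  have h5 : TT H (e0 m F) (c • pr (Fin.last (m + 2))) := phi_up H hu 2 (by omega) h3 (m + 2) (by omega) (by omega)
  refine ⟨h5, ?_⟩
  have h6 := h1.add_right h5.neg
  have h7 : c • (pr (Fin.last (m + 2)) + pr 1) + -(c • pr (Fin.last (m + 2))) =
      (c • pr 1 : (Fin (m + 3) → F) →ₗ[F] F) := by module
  rwa [h7] at h6

/-- if the parameter is right, all of the root subgroup is there -/
theorem all_last [Finite F] (hu : u m F ∈ H) (hw : w m F ∈ H) (γ : Fˣ) (hγ : ∀ a : Fˣ, a ∈ Subgroup.zpowers γ)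
    (hγH : TT H (e0 m F) (((γ : F) / c0 m F) • pr (Fin.last (m + 2)))) (a : F) :
    TT H (e0 m F) (a • pr (Fin.last (m + 2))) := by
  have hc := c0_ne (m := m) (F := F)
  have h1 : ∀ k : ℕ, TT H (e0 m F) (((γ : F) ^ (k + 1) / c0 m F) • pr (Fin.last (m + 2))) := by
    intro k
    induction k with
    | zero => rw [zero_add, pow_one]; exact hγH
    | succ k ih =>
      have := (one_last H hu hw ih hγH).1
      have e1 : c0 m F * ((γ : F) / c0 m F) * ((γ : F) ^ (k + 1) / c0 m F) = (γ : F) ^ (k + 1 + 1) / c0 m F := by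
        field_simp
        ring
      rwa [e1] at this
  by_cases ha : a = 0
  · rw [ha, zero_smul]; exact T_zero_right _
  · have h2 := hγ (Units.mk0 (a * c0 m F) (mul_ne_zero ha hc))
    rw [← mem_powers_iff_mem_zpowers] at h2
    obtain ⟨k, hk⟩ := h2
    have hk' : (γ : F) ^ k = a * c0 m F := by
      have := congrArg Units.val hk
      simpa using this
    -- make the exponent positive
    have h3 : (γ : F) ^ (k + orderOf γ - 1 + 1) = a * c0 m F := by
      have hpos := orderOf_pos γ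
      have e2 : k + orderOf γ - 1 + 1 = k + orderOf γ := by omega
      rw [e2, pow_add, hk']
      have : (γ : F) ^ orderOf γ = 1 := by
        rw [← Units.val_pow_eq_pow_val, pow_orderOf_eq_one, Units.val_one]
      rw [this, mul_one]
    have h4 := h1 (k + orderOf γ - 1)
    rw [h3, mul_div_assoc, div_self hc, mul_one] at h4
    exact h4

theorem N_mv (k : ℕ) (v : Fin (m + 3) → F) (i : Fin (m + 3)) : ((N m F ^ k) *ᵥ v) i =
    if h : (i : ℕ) + k < m + 3 then v ⟨i + k, h⟩ else 0 := by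
  change ∑ j, (N m F ^ k) i j * v j = _
  by_cases h : (i : ℕ) + k < m + 3
  · rw [dif_pos h, Finset.sum_eq_single ⟨i + k, h⟩]
    · rw [N_pow, if_pos rfl, one_mul]
    · intro j _ hj
      rw [N_pow, if_neg, zero_mul]
      intro h2; exact hj (Fin.ext h2)
    · intro h; exact absurd (Finset.mem_univ _) h
  · rw [dif_neg h]
    refine Finset.sum_eq_zero fun j _ => ?_
    rw [N_pow, if_neg, zero_mul]
    omega

theorem X_N (X : Submodule F (Fin (m + 3) → F)) (hXu : ∀ v ∈ X, (u m F).1 *ᵥ v ∈ X) (k : ℕ) :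
    ∀ v ∈ X, (N m F ^ k) *ᵥ v ∈ X := by
  induction k with
  | zero => intro v hv; rw [pow_zero, one_mulVec]; exact hv
  | succ k ih =>
    intro v hv
    rw [pow_succ, ← mulVec_mulVec]
    apply ih
    have e1 : N m F *ᵥ v = (u m F).1 *ᵥ v - v := by
      change _ = (1 + N m F) *ᵥ v - v
      rw [add_mulVec, one_mulVec, add_sub_cancel_left]
    rw [e1]
    exact X.sub_mem (hXu v hv) hv

theorem decomp (v : Fin (m + 3) → F) (i : Fin (m + 3)) (hvj : ∀ j : Fin (m + 3), i < j → v j = 0) :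
    v i • (Pi.single i 1 : Fin (m + 3) → F) =
      v - ∑ j ∈ Finset.univ.filter (fun j => j < i), v j • (Pi.single j 1 : Fin (m + 3) → F) := by
  rw [eq_sub_iff_add_eq]
  ext l
  rw [Pi.add_apply, Finset.sum_apply, Pi.smul_apply]
  rcases lt_trichotomy l i with h2 | h2 | h2
  · rw [Pi.single_eq_of_ne h2.ne, smul_zero, zero_add, Finset.sum_eq_single l]
    · rw [Pi.smul_apply, Pi.single_eq_same, smul_eq_mul, mul_one]
    · intro j _ hj
      rw [Pi.smul_apply, Pi.single_eq_of_ne hj.symm, smul_zero]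
    · intro h3; exact absurd (Finset.mem_filter.2 ⟨Finset.mem_univ l, h2⟩ : l ∈ Finset.univ.filter (fun j => j < i)) h3
  · rw [h2, Pi.single_eq_same, smul_eq_mul, mul_one, Finset.sum_eq_zero, add_zero]
    intro j hj
    rw [Pi.smul_apply, Pi.single_eq_of_ne (Finset.mem_filter.1 hj).2.ne', smul_zero]
  · rw [hvj l h2, Pi.single_eq_of_ne h2.ne', smul_zero, zero_add, Finset.sum_eq_zero]
    intro j hj
    rw [Pi.smul_apply, Pi.single_eq_of_ne ((Finset.mem_filter.1 hj).2.trans h2).ne', smul_zero]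

theorem X_top (X : Submodule F (Fin (m + 3) → F)) (hXu : ∀ v ∈ X, (u m F).1 *ᵥ v ∈ X)
    (z : Fin (m + 3) → F) (hz : z ∈ X) (hzl : z (Fin.last (m + 2)) ≠ 0) : X = ⊤ := by
  have hbasis : ∀ k : ℕ, ∀ i : Fin (m + 3), (i : ℕ) < k → (Pi.single i 1 : Fin (m + 3) → F) ∈ X := by
    intro k
    induction k with
    | zero => intro i hi; exact absurd hi (Nat.not_lt_zero _)
    | succ k ih =>
      intro i hi
      rcases Nat.lt_or_ge (i : ℕ) k with h | h
      · exact ih i h
      · have hik : (i : ℕ) = k := by omega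
        have hvX : (N m F ^ (m + 2 - i)) *ᵥ z ∈ X := X_N X hXu _ z hz
        have hvi : ((N m F ^ (m + 2 - i)) *ᵥ z) i = z (Fin.last (m + 2)) := by
          rw [N_mv, dif_pos (by omega)]
          congr 1
          apply Fin.ext; rw [Fin.val_last]; change (i : ℕ) + (m + 2 - i) = m + 2; omega
        have e3 := decomp ((N m F ^ (m + 2 - i)) *ᵥ z) i (by
          intro j hj
          have : (i : ℕ) < j := hj
          rw [N_mv, dif_neg (by omega)])
        have e2 : z (Fin.last (m + 2)) • (Pi.single i 1 : Fin (m + 3) → F) ∈ X := by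
          rw [← hvi, e3]
          refine X.sub_mem hvX (X.sum_mem fun j hj => X.smul_mem _ (ih j ?_))
          have : (j : ℕ) < i := (Finset.mem_filter.1 hj).2
          omega
        have e4 := X.smul_mem (z (Fin.last (m + 2)))⁻¹ e2
        rwa [smul_smul, inv_mul_cancel₀ hzl, one_smul] at e4
  rw [eq_top_iff]
  intro v _
  have : v = ∑ i, v i • (Pi.single i 1 : Fin (m + 3) → F) := by
    ext l
    rw [Finset.sum_apply, Finset.sum_eq_single l]
    · simp
    · intro j _ hj
      rw [Pi.smul_apply, Pi.single_eq_of_ne hj.symm, smul_zero]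
    · intro h; exact absurd (Finset.mem_univ _) h
  rw [this]
  exact X.sum_mem fun i _ => X.smul_mem _ (hbasis (m + 3) i i.2)

theorem ctr_of_all (h1 : ∀ (a : F) (k : ℕ) (hk : k < m + 3), 1 ≤ k → TT H (e0 m F) (a • pr ⟨k, hk⟩)) :
    e0 m F ∈ ctr (H.map (SpecialLinearGroup.toGL (n := Fin (m + 3)) (R := F))) := by
  rw [mem_ctr]
  intro φ hφ
  have h3 : φ = ∑ i : Fin (m + 3), (φ (Pi.single i 1)) • pr i := by
    refine LinearMap.pi_ext' fun i => ?_
    refine LinearMap.ext_ring ?_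
    simp only [LinearMap.comp_apply, LinearMap.coe_single, LinearMap.sum_apply, LinearMap.smul_apply,
      LinearMap.proj_apply, smul_eq_mul]
    rw [Finset.sum_eq_single i]
    · simp
    · intro j _ hj
      rw [Pi.single_eq_of_ne hj, mul_zero]
    · intro h; exact absurd (Finset.mem_univ _) h
  rw [h3]
  have h4 : ∀ s : Finset (Fin (m + 3)), TT H (e0 m F) (∑ i ∈ s, (φ (Pi.single i 1)) • pr i) := by
    intro s
    induction s using Finset.induction_on with
    | empty => rw [Finset.sum_empty]; exact T_zero_right _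
    | insert i s his ih =>
      rw [Finset.sum_insert his]
      refine T.add_right ?_ ih
      by_cases hi : i = 0
      · rw [hi, hφ, zero_smul]; exact T_zero_right _
      · exact h1 _ i i.2 (by
          rcases Nat.eq_zero_or_pos (i : ℕ) with h | h
          · exact absurd (Fin.ext (by simpa using h)) hi
          · exact h)
  exact h4 _

theorem top_of_SL (h : Cfsg.Geo.specialLinear (Fin (m + 3)) F ≤ H.map (SpecialLinearGroup.toGL (n := Fin (m + 3)) (R := F))) :
    H = ⊤ := by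
  rw [eq_top_iff]
  intro g _
  have h5 : (SpecialLinearGroup.toGL g : GL (Fin (m + 3)) F) ∈ H.map (SpecialLinearGroup.toGL (n := Fin (m + 3)) (R := F)) := by
    apply h
    change Matrix.GeneralLinearGroup.det (SpecialLinearGroup.toGL g) = 1
    apply Units.ext
    exact g.2
  obtain ⟨g', hg', h6⟩ := h5
  have : g' = g := by
    apply Subtype.ext
    exact congrArg Units.val h6
  rw [← this]; exact hg'

theorem ctr_mv {g : SLm m F} (hg : g ∈ H) {v : Fin (m + 3) → F}
    (hv : v ∈ ctr (H.map (SpecialLinearGroup.toGL (n := Fin (m + 3)) (R := F)))) :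
    g.1 *ᵥ v ∈ ctr (H.map (SpecialLinearGroup.toGL (n := Fin (m + 3)) (R := F))) :=
  ctr_conj hv (Subgroup.mem_map_of_mem (SpecialLinearGroup.toGL (n := Fin (m + 3)) (R := F)) hg)

theorem eq_top [Finite F] (hu : u m F ∈ H) (hw : w m F ∈ H) (γ : Fˣ) (hγ : ∀ a : Fˣ, a ∈ Subgroup.zpowers γ)
    (hγH : TT H (e0 m F) (((γ : F) / c0 m F) • pr (Fin.last (m + 2)))) : H = ⊤ := by
  have hc := c0_ne (m := m) (F := F)
  have hl := all_last H hu hw γ hγ hγH
  have hctr := ctr_of_all H (by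
    intro a k hk hk1
    have h2 := (one_last H hu hw (hl (a / c0 m F)) (hl 1)).2
    have e1 : c0 m F * 1 * (a / c0 m F) = a := by field_simp
    rw [e1] at h2
    have h10 : (⟨1, by omega⟩ : Fin (m + 3)) = 1 := by apply Fin.ext; simp
    rw [← h10] at h2
    exact phi_up H hu 1 (by omega) h2 k hk hk1)
  refine top_of_SL H (SL_le_of_ctr ?_)
  refine X_top _ (fun v hv => ctr_mv H hu hv) _ (ctr_mv H (inv_mem hw) hctr) hc

end grp

theorem final3 [Finite F] : ∃ u g h : SLm m F, (IsNilpotent (u.1 - 1) ∧ (u.1 - 1) ^ (m + 3 - 1) ≠ 0) ∧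
      Subgroup.closure ({u, g * u * g⁻¹, h * u * h⁻¹} : Set (SLm m F)) = ⊤ := by
  obtain ⟨γ, hγ⟩ := IsCyclic.exists_generator (α := Fˣ)
  set lam : F := (γ : F) / c0 m F with hlam
  refine ⟨u m F, y m lam, x m F, ⟨u_nilp, u_reg⟩, ?_⟩
  set H := Subgroup.closure ({u m F, y m lam * u m F * (y m lam)⁻¹, x m F * u m F * (x m F)⁻¹} : Set (SLm m F)) with hH
  have hu : u m F ∈ H := Subgroup.subset_closure (by simp)
  have hw : w m F ∈ H := Subgroup.subset_closure (by simp [w])
  have hy : y m lam * u m F * (y m lam)⁻¹ ∈ H := Subgroup.subset_closure (by simp)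
  have ht : t m lam ∈ H := by
    rw [y_u, mul_inv_cancel_right] at hy
    have := mul_mem (inv_mem hu) hy
    rwa [inv_mul_cancel_left] at this
  refine eq_top H hu hw γ hγ ?_
  refine ⟨?_, SpecialLinearGroup.toGL (t m lam), Subgroup.mem_map_of_mem _ ht, fun v => ?_⟩
  · simp only [LinearMap.smul_apply, LinearMap.proj_apply]
    rw [e0_ne last_ne_zero, smul_zero]
  · have := el_apply (0 : Fin (m + 3)) (Fin.last (m + 2)) (Fin.last_pos.ne) lam v
    exact this

end

theorem final {F : Type*} [Field F] [Fintype F] (n : ℕ) (hn : 3 ≤ n) :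
    ∃ u g h : Matrix.SpecialLinearGroup (Fin n) F, (IsNilpotent ((u : Matrix (Fin n) (Fin n) F) - 1) ∧ ((u : Matrix (Fin n) (Fin n) F) - 1) ^ (n - 1) ≠ 0) ∧
      Subgroup.closure ({u, g * u * g⁻¹, h * u * h⁻¹} : Set (Matrix.SpecialLinearGroup (Fin n) F)) = ⊤ := by
  obtain ⟨m, rfl⟩ : ∃ m, n = m + 3 := ⟨n - 3, by omega⟩
  exact final3

end Cfsg.Agent.H13.RU
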