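import Mathlib
import Cfsg.Agent.H13_RU

/-! `SL_3(q)` is generated by two conjugate regular unipotent elements. -/

namespace Cfsg.Agent.H13.RU3

open Matrix H29.Trv H13.RU

section

variable {F : Type*} [Field F]

abbrev S3 (F : Type*) [Field F] := SLm 0 F

/-- the relation for `e_1` -/
abbrev RR (H : Subgroup (S3 F)) (c : F) : Prop := TT H (e0 0 F) (c • pr 2)

theorem inv20 (A : S3 F) (h : A.1 2 0 = 0) : (A⁻¹).1 2 0 = A.1 1 0 * A.1 2 1 := by
  have h1 : (A⁻¹).1 = adjugate A.1 := Matrix.SpecialLinearGroup.coe_inv A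
  rw [h1, adjugate_fin_three]
  simp only [of_apply, cons_val', cons_val_zero, cons_val_fin_one, cons_val]
  rw [h]
  ring

theorem mv_e0 (A : Matrix (Fin 3) (Fin 3) F) (i : Fin 3) : (A *ᵥ e0 0 F) i = A i 0 := by
  change (A *ᵥ (Pi.single 0 1)) i = _
  rw [mulVec_single_one]
  rfl

theorem pr2_A (A : Matrix (Fin 3) (Fin 3) F) (h : A 2 0 = 0) :
    (pr 2 : (Fin 3 → F) →ₗ[F] F) ∘ₗ Matrix.mulVecLin A = A 2 1 • pr 1 + A 2 2 • pr 2 := by
  refine LinearMap.ext fun v => ?_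
  change (A *ᵥ v) 2 = A 2 1 * v 1 + A 2 2 * v 2
  rw [mulVec, dotProduct, Fin.sum_univ_three, h]
  ring

section grp

variable {H : Subgroup (S3 F)} {A : S3 F}

theorem clos1 (hA : A ∈ H) (h0 : A.1 2 0 = 0) {a b : F} (ha : RR H a) (hb : RR H b) :
    TT H (e0 0 F) ((a * b * (A.1 1 0 * A.1 2 1)) • ((pr 2 : (Fin 3 → F) →ₗ[F] F) ∘ₗ Matrix.mulVecLin A.1)) := by
  have h1 := TT_conj ha hA
  rw [LinearMap.smul_comp] at h1
  have h2 : (a • ((pr 2 : (Fin 3 → F) →ₗ[F] F) ∘ₗ Matrix.mulVecLin A.1)) (e0 0 F) = 0 := by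
    change a * (A.1 *ᵥ e0 0 F) 2 = 0
    rw [mv_e0, h0, mul_zero]
  have h3 := T.comm h1 hb h2
  have h4 : (b • (pr 2 : (Fin 3 → F) →ₗ[F] F)) ((A⁻¹).1 *ᵥ e0 0 F) = b * (A.1 1 0 * A.1 2 1) := by
    change b * ((A⁻¹).1 *ᵥ e0 0 F) 2 = _
    rw [mv_e0, inv20 A h0]
  rw [h4, smul_smul] at h3
  have h5 : b * (A.1 1 0 * A.1 2 1) * a = a * b * (A.1 1 0 * A.1 2 1) := by ring
  rwa [h5] at h3

theorem clos2 (hA : A ∈ H) (h0 : A.1 2 0 = 0) {a b : F} (ha : RR H a) (hb : RR H b) :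
    TT H (A.1 *ᵥ e0 0 F) ((a * b * (A.1 1 0 * A.1 2 1)) • pr 2) := by
  have h1 := TT_conj hb (inv_mem hA)
  rw [inv_inv, LinearMap.smul_comp] at h1
  have h2 : (a • (pr 2 : (Fin 3 → F) →ₗ[F] F)) (A.1 *ᵥ e0 0 F) = 0 := by
    change a * (A.1 *ᵥ e0 0 F) 2 = 0
    rw [mv_e0, h0, mul_zero]
  have h3 := T.comm ha h1 h2
  have h4 : (b • ((pr 2 : (Fin 3 → F) →ₗ[F] F) ∘ₗ Matrix.mulVecLin (A⁻¹).1)) (e0 0 F) = b * (A.1 1 0 * A.1 2 1) := by
    change b * ((A⁻¹).1 *ᵥ e0 0 F) 2 = _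
    rw [mv_e0, inv20 A h0]
  rw [h4, smul_smul] at h3
  have h5 : b * (A.1 1 0 * A.1 2 1) * a = a * b * (A.1 1 0 * A.1 2 1) := by ring
  rwa [h5] at h3

/-- if the root subgroup is full then the group is everything -/
theorem top_of_full (hA : A ∈ H) (h0 : A.1 2 0 = 0) (hb : A.1 1 0 ≠ 0) (hf : A.1 2 1 ≠ 0)
    (hR : ∀ c : F, RR H c) : H = ⊤ := by
  have h1 : ∀ c : F, TT H (e0 0 F) (c • pr 1) := by
    intro c
    have h2 := clos1 hA h0 (hR (c / (A.1 1 0 * A.1 2 1 * A.1 2 1))) (hR 1)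
    rw [pr2_A _ h0] at h2
    set k := c / (A.1 1 0 * A.1 2 1 * A.1 2 1) * 1 * (A.1 1 0 * A.1 2 1) with hk
    have h3 : k * A.1 2 1 = c := by rw [hk]; field_simp
    have h4 := h2.add_right (hR (-(k * A.1 2 2)))
    have h5 : k • (A.1 2 1 • pr 1 + A.1 2 2 • pr 2) + (-(k * A.1 2 2)) • (pr 2 : (Fin 3 → F) →ₗ[F] F) = c • pr 1 := by
      rw [← h3]; module
    rwa [h5] at h4
  have hctr := ctr_of_all H (by
    intro a k hk hk1
    have : k = 1 ∨ k = 2 := by omega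
    rcases this with rfl | rfl
    · exact h1 a
    · exact hR a)
  refine top_of_SL H (SL_le_of_ctr ?_)
  set X := ctr (H.map (SpecialLinearGroup.toGL (n := Fin 3) (R := F))) with hX
  have g0 : (Pi.single 0 1 : Fin 3 → F) ∈ X := hctr
  have hAX : ∀ v ∈ X, A.1 *ᵥ v ∈ X := fun v hv => ctr_mv H hA hv
  have dec : ∀ v : Fin 3 → F, v = v 0 • (Pi.single 0 1 : Fin 3 → F) + v 1 • (Pi.single 1 1 : Fin 3 → F) + v 2 • (Pi.single 2 1 : Fin 3 → F) := by
    intro v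
    ext i
    fin_cases i <;> simp
  have g1 : (Pi.single 1 1 : Fin 3 → F) ∈ X := by
    have h2 := hAX _ g0
    rw [dec (A.1 *ᵥ Pi.single 0 1)] at h2
    have e0' : (A.1 *ᵥ (Pi.single 0 1 : Fin 3 → F)) 1 = A.1 1 0 := by rw [mulVec_single_one]; rfl
    have e1' : (A.1 *ᵥ (Pi.single 0 1 : Fin 3 → F)) 2 = 0 := by rw [mulVec_single_one]; exact h0
    rw [e0', e1', zero_smul, add_zero] at h2
    have h3 := (X.add_mem_iff_right (X.smul_mem _ g0)).1 h2
    have h4 := X.smul_mem (A.1 1 0)⁻¹ h3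
    rwa [smul_smul, inv_mul_cancel₀ hb, one_smul] at h4
  have g2 : (Pi.single 2 1 : Fin 3 → F) ∈ X := by
    have h2 := hAX _ g1
    rw [dec (A.1 *ᵥ Pi.single 1 1)] at h2
    have e1' : (A.1 *ᵥ (Pi.single 1 1 : Fin 3 → F)) 2 = A.1 2 1 := by rw [mulVec_single_one]; rfl
    rw [e1'] at h2
    have h3 := (X.add_mem_iff_right (X.add_mem (X.smul_mem _ g0) (X.smul_mem _ g1))).1 h2
    have h4 := X.smul_mem (A.1 2 1)⁻¹ h3
    rwa [smul_smul, inv_mul_cancel₀ hf, one_smul] at h4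
  rw [eq_top_iff]
  intro v _
  rw [dec v]
  exact X.add_mem (X.add_mem (X.smul_mem _ g0) (X.smul_mem _ g1)) (X.smul_mem _ g2)

end grp


theorem inv_mem_sub [Finite F] (T : Subring F) {x : F} (hx : x ∈ T) : x⁻¹ ∈ T := by
  by_cases h : x = 0
  · rw [h, _root_.inv_zero]; exact T.zero_mem
  · obtain ⟨n, hn, hn1⟩ := isOfFinOrder_iff_pow_eq_one.1 (isOfFinOrder_of_finite (Units.mk0 x h))
    have h1 : x ^ n = 1 := by
      have := congrArg Units.val hn1
      simpa using this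
    have h2 : x⁻¹ = x ^ (n - 1) := by
      refine inv_eq_of_mul_eq_one_left ?_
      rw [← pow_succ, Nat.sub_add_cancel hn, h1]
    rw [h2]; exact T.pow_mem hx _

/-- an additive subgroup closed under a twisted product is a subfield -/
theorem sub_field [Finite F] (R : AddSubgroup F) (o : F) (ho : o ∈ R) (κ : F) (hκ : κ ≠ 0)
    (hoT : ∀ T : Subring F, (∀ x, x ∈ T → o⁻¹ * x ∈ T ∧ o * x ∈ T)) (ho0 : o ≠ 0)
    (hm : ∀ r ∈ R, ∀ r' ∈ R, κ * r * r' ∈ R) :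
    ∃ T : Subring F, (∀ x, x ∈ T ↔ x ∈ R) ∧ κ ∈ T := by
  let T : Subring F :=
    { carrier := {x | ∀ r ∈ R, x * r ∈ R}
      mul_mem' := by
        intro x y hx hy r hr
        rw [mul_assoc]; exact hx _ (hy _ hr)
      one_mem' := by intro r hr; rwa [one_mul]
      add_mem' := by
        intro x y hx hy r hr
        rw [add_mul]; exact R.add_mem (hx _ hr) (hy _ hr)
      zero_mem' := by intro r hr; rw [zero_mul]; exact R.zero_mem
      neg_mem' := by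
        intro x hx r hr
        rw [neg_mul]; exact R.neg_mem (hx _ hr) }
  have hT : ∀ x, x ∈ T ↔ ∀ r ∈ R, x * r ∈ R := fun _ => Iff.rfl
  have h1 : ∀ r ∈ R, κ * r ∈ T := fun r hr r' hr' => hm r hr r' hr'
  have h2 : κ ∈ T := by
    have := (hoT T _ (h1 o ho)).1
    rwa [mul_comm κ o, inv_mul_cancel_left₀ ho0] at this
  refine ⟨T, fun x => ⟨fun hx => ?_, fun hx => ?_⟩, h2⟩
  · have h3 := (hoT T x hx).1
    have h4 := h3 o ho
    rwa [mul_right_comm, inv_mul_cancel₀ ho0, one_mul] at h4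
  · have h3 := T.mul_mem (inv_mem_sub T h2) (h1 x hx)
    rwa [inv_mul_cancel_left₀ hκ] at h3

theorem two_stab [Finite F] (T : Subring F) (x : F) (hx : x ∈ T) :
    (2 : F)⁻¹ * x ∈ T ∧ 2 * x ∈ T := by
  have h : (2 : F) ∈ T := by
    have : (2 : F) = 1 + 1 := by norm_num
    rw [this]; exact T.add_mem T.one_mem T.one_mem
  exact ⟨T.mul_mem (inv_mem_sub T h) hx, T.mul_mem h hx⟩

theorem frob_mem [Finite F] (T : Subring F) (h3 : (3 : F) = 0) {a : F} (ha : a ^ 3 ∈ T) : a ∈ T := by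
  have : Fact (Nat.Prime 3) := ⟨by norm_num⟩
  have hch : CharP F 3 := by
    obtain ⟨p, hp⟩ := CharP.exists F
    have hpp : p.Prime := CharP.char_is_prime F p
    have h5 : p ∣ 3 := by
      rw [← CharP.cast_eq_zero_iff F p 3]
      exact_mod_cast h3
    have h6 := (Nat.prime_dvd_prime_iff_eq hpp (by norm_num)).1 h5
    rw [← h6]; exact hp
  have := Fintype.ofFinite F
  obtain ⟨n, hp, hn⟩ := FiniteField.card F 3
  have h1 : a ^ (3 ^ (n : ℕ)) = a := by rw [← hn]; exact FiniteField.pow_card a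
  have hn1 : (n : ℕ) = (n - 1 : ℕ) + 1 := (Nat.sub_add_cancel n.pos).symm
  rw [hn1, pow_succ', pow_mul] at h1
  rw [← h1]
  exact T.pow_mem ha _

theorem odd_all [Finite F] (h2 : (2 : F) ≠ 0) (R : AddSubgroup F) (ho : (2 : F) ∈ R) (a : F) (ha : a ≠ 0)
    (hc : a ^ 2 + 3 ≠ 0) (hm : ∀ r ∈ R, ∀ r' ∈ R, (-4 * a * (a ^ 2 + 3)) * r * r' ∈ R)
    (hm4 : (-32 * (a ^ 2 + 3) ^ 3) * 16 ∈ R)
    (hgen : ∀ T : Subring F, a ∈ T → T = ⊤) (x : F) : x ∈ R := by
  have h4 : (4 : F) ≠ 0 := by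
    have : (4 : F) = 2 * 2 := by norm_num
    rw [this]; exact mul_ne_zero h2 h2
  obtain ⟨T, hT, hκ⟩ := sub_field R 2 ho (-4 * a * (a ^ 2 + 3))
    (mul_ne_zero (mul_ne_zero (neg_ne_zero.2 h4) ha) hc) two_stab h2 hm
  have h2T : (2 : F) ∈ T := (hT 2).2 ho
  have h2i : (2 : F)⁻¹ ∈ T := inv_mem_sub T h2T
  have h3T : (3 : F) ∈ T := by
    have : (3 : F) = 2 + 1 := by norm_num
    rw [this]; exact T.add_mem h2T T.one_mem
  have e1 : a * (a ^ 2 + 3) ∈ T := by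
    have := T.mul_mem (T.neg_mem (T.mul_mem h2i h2i)) hκ
    have e : -((2 : F)⁻¹ * 2⁻¹) * (-4 * a * (a ^ 2 + 3)) = a * (a ^ 2 + 3) := by
      field_simp; ring
    rwa [e] at this
  have e2 : (a ^ 2 + 3) ^ 3 ∈ T := by
    have h5 := (hT _).2 hm4
    have := T.mul_mem (T.neg_mem (T.pow_mem h2i 9)) h5
    have e : -((2 : F)⁻¹ ^ 9) * (-32 * (a ^ 2 + 3) ^ 3 * 16) = (a ^ 2 + 3) ^ 3 := by
      field_simp; ring
    rwa [e] at this
  have e3 : a ^ 3 ∈ T := by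
    have := T.mul_mem (T.pow_mem e1 3) (inv_mem_sub T e2)
    have e : (a * (a ^ 2 + 3)) ^ 3 * ((a ^ 2 + 3) ^ 3)⁻¹ = a ^ 3 := by
      field_simp
    rwa [e] at this
  have e4 : 3 * a ∈ T := by
    have := T.sub_mem e1 e3
    have e : a * (a ^ 2 + 3) - a ^ 3 = 3 * a := by ring
    rwa [e] at this
  have e5 : a ∈ T := by
    by_cases h3 : (3 : F) = 0
    · exact frob_mem T h3 e3
    · have := T.mul_mem (inv_mem_sub T h3T) e4
      rwa [inv_mul_cancel_left₀ h3] at this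
  rw [← hT, hgen T e5]
  exact Subring.mem_top x

/-- choice of the parameter -/
theorem exists_param [Finite F] (h2 : (2 : F) ≠ 0) : ∃ a : F, a ≠ 0 ∧ a ^ 2 + 3 ≠ 0 ∧
    ∀ T : Subring F, a ∈ T → T = ⊤ := by
  obtain ⟨γ, hγ⟩ := IsCyclic.exists_generator (α := Fˣ)
  have h4 : (4 : F) ≠ 0 := by
    have : (4 : F) = 2 * 2 := by norm_num
    rw [this]; exact mul_ne_zero h2 h2
  have hgen : ∀ T : Subring F, (γ : F) ∈ T → T = ⊤ := by
    intro T hT
    rw [eq_top_iff]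
    intro x _
    by_cases hx : x = 0
    · rw [hx]; exact T.zero_mem
    · have h3 := hγ (Units.mk0 x hx)
      rw [← mem_powers_iff_mem_zpowers] at h3
      obtain ⟨k, hk⟩ := h3
      have hk' : (γ : F) ^ k = x := by
        have := congrArg Units.val hk
        simpa using this
      rw [← hk']; exact T.pow_mem hT k
  by_cases h : (γ : F) ^ 2 + 3 = 0
  · by_cases h5 : 2 * (γ : F) + 1 = 0
    · refine ⟨γ - 1, ?_, ?_, fun T hT => hgen T ?_⟩
      · intro h6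
        have : (γ : F) = 1 := sub_eq_zero.1 h6
        rw [this] at h
        apply h4; linear_combination h
      · intro h6
        apply h2
        linear_combination h6 - h + h5
      · have := T.add_mem hT T.one_mem
        rwa [sub_add_cancel] at this
    · refine ⟨γ + 1, ?_, ?_, fun T hT => hgen T ?_⟩
      · intro h6
        have : (γ : F) = -1 := by linear_combination h6
        rw [this] at h
        apply h4; linear_combination h
      · intro h6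
        apply h5
        linear_combination h6 - h
      · have := T.sub_mem hT T.one_mem
        rwa [add_sub_cancel_right] at this
  · exact ⟨γ, γ.ne_zero, h, hgen⟩

end

end Cfsg.Agent.H13.RU3
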