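import Mathlib
import Cfsg.Agent.H13_RU3

/-! `SL_3(q)`, `q` odd, is generated by two conjugate regular unipotent elements. -/

namespace Cfsg.Agent.H13.RU3

open Matrix H29.Trv H13.RU

section

variable {F : Type*} [Field F]

def Um (a : F) : Matrix (Fin 3) (Fin 3) F :=
  !![a, 0, -(1 - a) ^ 3 / (2 * (a ^ 2 + 3)); -2 * (a ^ 2 + 3), 3, -(a ^ 2 + 3); 0, 1, -a]

def Sm (F : Type*) [Field F] : Matrix (Fin 3) (Fin 3) F := !![-1, 0, -1; 0, 1, 0; 0, 0, -1]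

def Gm (a : F) : Matrix (Fin 3) (Fin 3) F :=
  !![1, (a ^ 2 - 2 * a + 3) / (2 * (a ^ 2 + 3)), (1 - a) * (a ^ 2 - 2 * a + 3) / (2 * (a ^ 2 + 3));
     0, -a, a ^ 2 + 1; 0, -1, a]

variable {a : F} (h2 : (2 : F) ≠ 0) (hc : a ^ 2 + 3 ≠ 0)

include h2 hc in
theorem det_Um : (Um a).det = 1 := by
  rw [det_fin_three]
  simp [Um]
  field_simp
  ring

theorem det_Sm : (Sm F).det = 1 := by
  rw [det_fin_three]
  simp [Sm]

theorem det_Gm (a : F) : (Gm a).det = 1 := by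
  rw [det_fin_three]
  simp [Gm]
  ring

include h2 hc in
theorem UGU : Um a * Gm a * Um a = Sm F * Gm a := by
  ext i j
  fin_cases i <;> fin_cases j <;>
    simp [Um, Gm, Sm, Matrix.mul_apply, Fin.sum_univ_three] <;> field_simp <;> ring

include h2 hc in
theorem Um_nilp : (Um a - 1) ^ 3 = 0 := by
  have h : (Um a - 1) * (Um a - 1) * (Um a - 1) = 0 := by
    ext i j
    fin_cases i <;> fin_cases j <;>
      simp [Um, Matrix.mul_apply, Fin.sum_univ_three, Matrix.one_apply] <;> field_simp <;> ring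
  rw [pow_succ, pow_two, h]

include h2 hc in
theorem Um_reg : (Um a - 1) ^ 2 ≠ 0 := by
  intro h
  have h1 := congrFun (congrFun h 2) 0
  rw [pow_two] at h1
  simp [Um, Matrix.mul_apply, Fin.sum_univ_three, Matrix.one_apply] at h1
  tauto

theorem Sm_sq (v : Fin 3 → F) : (Sm F * Sm F) *ᵥ v = v + (2 * v 2) • Pi.single 0 1 := by
  ext i
  fin_cases i <;>
    simp [Sm, Matrix.mulVec, dotProduct, Matrix.mul_apply, Fin.sum_univ_three]
  left; norm_num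

def U (h2 : (2 : F) ≠ 0) (hc : a ^ 2 + 3 ≠ 0) : S3 F := ⟨Um a, det_Um h2 hc⟩
def S (F : Type*) [Field F] : S3 F := ⟨Sm F, det_Sm⟩
def G (a : F) : S3 F := ⟨Gm a, det_Gm a⟩

theorem conj_eq : U h2 hc * (G a * U h2 hc * (G a)⁻¹) = S F := by
  have h : U h2 hc * G a * U h2 hc = S F * G a := Subtype.ext (UGU h2 hc)
  rw [← mul_assoc, ← mul_assoc, h, mul_inv_cancel_right]

/-- the second basis vector -/
abbrev E1 (F : Type*) [Field F] : Fin 3 → F := Pi.single 1 1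

theorem S_vec (x y : F) : ((S F)⁻¹).1 *ᵥ (x • e0 0 F + y • E1 F) = -(x • e0 0 F) + y • E1 F := by
  have h : (S F).1 *ᵥ (-(x • e0 0 F) + y • E1 F) = x • e0 0 F + y • E1 F := by
    ext i
    fin_cases i <;>
      simp [S, Sm, e0, E1, Matrix.mulVec, dotProduct, Fin.sum_univ_three]
  rw [← h, inv_mv]

theorem pr2_S : (pr 2 : (Fin 3 → F) →ₗ[F] F) ∘ₗ Matrix.mulVecLin (S F).1 = -pr 2 := by
  refine LinearMap.ext fun v => ?_
  change ((Sm F) *ᵥ v) 2 = -(v 2)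
  simp [Sm, Matrix.mulVec, dotProduct, Fin.sum_univ_three]

theorem pr1_S : (pr 1 : (Fin 3 → F) →ₗ[F] F) ∘ₗ Matrix.mulVecLin (S F).1 = pr 1 := by
  refine LinearMap.ext fun v => ?_
  change ((Sm F) *ᵥ v) 1 = v 1
  simp [Sm, Matrix.mulVec, dotProduct, Fin.sum_univ_three]

theorem U_e0 : (U h2 hc).1 *ᵥ e0 0 F = a • e0 0 F + (-2 * (a ^ 2 + 3)) • E1 F := by
  ext i
  rw [mv_e0]
  fin_cases i <;> simp [U, Um, e0, E1]

variable {H : Subgroup (S3 F)}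

/-- the two consequences of `clos2` -/
theorem step2 (hU : U h2 hc ∈ H) (hS : S F ∈ H) {r r' : F} (hr : RR H r) (hr' : RR H r') :
    RR H (-4 * a * (a ^ 2 + 3) * r * r') ∧
    TT H (E1 F) ((8 * (a ^ 2 + 3) ^ 2 * r * r') • pr 2) := by
  have e0' : (U h2 hc).1 2 0 = 0 := rfl
  have e1 : (U h2 hc).1 1 0 = -2 * (a ^ 2 + 3) := rfl
  have e2 : (U h2 hc).1 2 1 = 1 := rfl
  have h1 := clos2 hU e0' hr hr'
  rw [e1, e2, mul_one, U_e0] at h1
  set ρ := r * r' * (-2 * (a ^ 2 + 3)) with hρ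
  have h3 := TT_conj h1 hS
  rw [S_vec, LinearMap.smul_comp, pr2_S] at h3
  -- h3 : TT H (-(a e0) + b E1) (ρ • -pr 2)
  have h4 : TT H (a • e0 0 F + (2 * (a ^ 2 + 3)) • E1 F) (ρ • pr 2) := by
    have h5 : -(a • e0 0 F) + (-2 * (a ^ 2 + 3)) • E1 F = (-1 : F) • (a • e0 0 F + (2 * (a ^ 2 + 3)) • E1 F) := by module
    rw [h5] at h3
    have h3' := (T_smul_iff (-1 : F)).1 h3
    have h6 : (-1 : F) • ρ • -(pr 2 : (Fin 3 → F) →ₗ[F] F) = ρ • pr 2 := by module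
    rwa [h6] at h3'
  constructor
  · have h5 := h1.add_left h4
    have h6 : a • e0 0 F + (-2 * (a ^ 2 + 3)) • E1 F + (a • e0 0 F + (2 * (a ^ 2 + 3)) • E1 F) = (2 * a) • e0 0 F := by module
    rw [h6, T_smul_iff, smul_smul] at h5
    have h7 : 2 * a * ρ = -4 * a * (a ^ 2 + 3) * r * r' := by rw [hρ]; ring
    rwa [h7] at h5
  · have h4' : TT H ((-1 : F) • (a • e0 0 F + (2 * (a ^ 2 + 3)) • E1 F)) (ρ • pr 2) := by
      refine (T_smul_iff (-1 : F)).2 ?_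
      have h6 : (-1 : F) • ρ • (pr 2 : (Fin 3 → F) →ₗ[F] F) = -(ρ • pr 2) := by module
      rw [h6]; exact h4.neg
    have h5 := h1.add_left h4'
    have h6 : a • e0 0 F + (-2 * (a ^ 2 + 3)) • E1 F + (-1 : F) • (a • e0 0 F + (2 * (a ^ 2 + 3)) • E1 F) =
        (-4 * (a ^ 2 + 3)) • E1 F := by module
    rw [h6, T_smul_iff, smul_smul] at h5
    have h7 : -4 * (a ^ 2 + 3) * ρ = 8 * (a ^ 2 + 3) ^ 2 * r * r' := by rw [hρ]; ring
    rwa [h7] at h5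

theorem step1 (hU : U h2 hc ∈ H) (hS : S F ∈ H) {r r' : F} (hr : RR H r) (hr' : RR H r') :
    TT H (e0 0 F) ((-4 * (a ^ 2 + 3) * r * r') • pr 1) := by
  have e0' : (U h2 hc).1 2 0 = 0 := rfl
  have e1 : (U h2 hc).1 1 0 = -2 * (a ^ 2 + 3) := rfl
  have e2 : (U h2 hc).1 2 1 = 1 := rfl
  have e3 : (U h2 hc).1 2 2 = -a := rfl
  have h1 := clos1 hU e0' hr hr'
  rw [pr2_A _ e0', e1, e2, e3, mul_one] at h1
  set ρ := r * r' * (-2 * (a ^ 2 + 3)) with hρ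
  have h3 := TT_conj h1 hS
  have e4 : e0 0 F = (1 : F) • e0 0 F + (0 : F) • E1 F := by module
  rw [e4, S_vec, LinearMap.smul_comp, LinearMap.add_comp, LinearMap.smul_comp, LinearMap.smul_comp, pr1_S, pr2_S] at h3
  have h5 : -((1 : F) • e0 0 F) + (0 : F) • E1 F = (-1 : F) • e0 0 F := by module
  rw [h5] at h3
  have h3' := (T_smul_iff (-1 : F)).1 h3
  have h6 := h1.add_right h3'.neg
  have h7 : ρ • ((1 : F) • (pr 1 : (Fin 3 → F) →ₗ[F] F) + -a • pr 2) + -((-1 : F) • ρ • ((1 : F) • pr 1 + -a • -pr 2)) =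
      (-4 * (a ^ 2 + 3) * r * r') • pr 1 := by
    rw [hρ]; module
  rwa [h7] at h6

theorem step4 (hU : U h2 hc ∈ H) (hS : S F ∈ H) (hr : RR H 2) : RR H (-32 * (a ^ 2 + 3) ^ 3 * 16) := by
  have h1 := (step2 h2 hc hU hS hr hr).2
  have h3 := step1 h2 hc hU hS hr hr
  have h4 : ((8 * (a ^ 2 + 3) ^ 2 * 2 * 2) • (pr 2 : (Fin 3 → F) →ₗ[F] F)) (e0 0 F) = 0 := by
    simp [e0]
  have h5 := T.comm h1 h3 h4
  have h6 : ((-4 * (a ^ 2 + 3) * 2 * 2) • (pr 1 : (Fin 3 → F) →ₗ[F] F)) (E1 F) = -4 * (a ^ 2 + 3) * 2 * 2 := by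
    simp [E1]
  rw [h6, smul_smul] at h5
  have h7 : -4 * (a ^ 2 + 3) * 2 * 2 * (8 * (a ^ 2 + 3) ^ 2 * 2 * 2) = -32 * (a ^ 2 + 3) ^ 3 * 16 := by ring
  rwa [h7] at h5

/-- the additive subgroup of parameters -/
def RG (H : Subgroup (S3 F)) : AddSubgroup F where
  carrier := {c | RR H c}
  add_mem' := by
    intro a b ha hb
    have := T.add_right ha hb
    rwa [← add_smul] at this
  zero_mem' := by
    change TT H (e0 0 F) ((0 : F) • pr 2)
    rw [zero_smul]; exact T_zero_right _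
  neg_mem' := by
    intro a ha
    change TT H (e0 0 F) ((-a) • pr 2)
    have e : (-a) • (pr 2 : (Fin 3 → F) →ₗ[F] F) = -(a • pr 2) := by module
    rw [e]; exact T.neg ha

theorem odd_final [Finite F] (h2 : (2 : F) ≠ 0) : ∃ u g : S3 F, IsNilpotent (u.1 - 1) ∧ (u.1 - 1) ^ (3 - 1) ≠ 0 ∧
    Subgroup.closure ({u, g * u * g⁻¹} : Set (S3 F)) = ⊤ := by
  obtain ⟨a, ha, hc, hgen⟩ := exists_param h2
  refine ⟨U h2 hc, G a, ⟨3, Um_nilp h2 hc⟩, Um_reg h2 hc, ?_⟩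
  set H := Subgroup.closure ({U h2 hc, G a * U h2 hc * (G a)⁻¹} : Set (S3 F)) with hH
  have hU : U h2 hc ∈ H := Subgroup.subset_closure (by simp)
  have hw : G a * U h2 hc * (G a)⁻¹ ∈ H := Subgroup.subset_closure (by simp)
  have hS : S F ∈ H := by
    rw [← conj_eq h2 hc]; exact mul_mem hU hw
  have hR2 : RR H 2 := by
    refine ⟨?_, SpecialLinearGroup.toGL (S F * S F), Subgroup.mem_map_of_mem _ (mul_mem hS hS), fun v => ?_⟩
    · simp [e0]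
    · exact Sm_sq v
  have hall : ∀ x, RR H x := odd_all h2 (RG H) hR2 a ha hc
    (fun r hr r' hr' => (step2 h2 hc hU hS hr hr').1) (step4 h2 hc hU hS hR2) hgen
  refine top_of_full hU rfl ?_ ?_ hall
  · change -2 * (a ^ 2 + 3) ≠ 0
    exact mul_ne_zero (neg_ne_zero.2 h2) hc
  · change (1 : F) ≠ 0
    exact one_ne_zero

end

end Cfsg.Agent.H13.RU3
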