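import Mathlib
import Cfsg.Agent.H13_RU3b
import Cfsg.Agent.H13_GF4

/-! `SL_3(q)`, `q` even, is generated by two conjugate regular unipotent elements. -/

namespace Cfsg.Agent.H13.RU3

open Matrix H29.Trv H13.RU

section

variable {F : Type*} [Field F]

def Jm (F : Type*) [Field F] : Matrix (Fin 3) (Fin 3) F := !![1, 1, 0; 0, 1, 1; 0, 0, 1]
def Wm (μ : F) : Matrix (Fin 3) (Fin 3) F := !![1, 1, 0; μ, 1, 1; 0, μ, 1]
def Xm (μ : F) : Matrix (Fin 3) (Fin 3) F := !![1, 0, 0; 0, 1, 0; μ, 0, 1]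

theorem det_Jm : (Jm F).det = 1 := by
  rw [det_fin_three]
  simp [Jm]

theorem det_Wm (h2 : (2 : F) = 0) (μ : F) : (Wm μ).det = 1 := by
  rw [det_fin_three]
  simp [Wm]
  linear_combination -μ * h2

theorem det_Xm (μ : F) : (Xm μ).det = 1 := by
  rw [det_fin_three]
  simp [Xm]

theorem XJ (h2 : (2 : F) = 0) (μ : F) : Xm μ * Jm F = Wm μ * Xm μ := by
  ext i j
  fin_cases i <;> fin_cases j <;>
    simp [Xm, Jm, Wm, Matrix.mul_apply, Fin.sum_univ_three] <;> linear_combination -μ * h2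

theorem Jm_nilp : (Jm F - 1) ^ 3 = 0 := by
  have h : (Jm F - 1) * (Jm F - 1) * (Jm F - 1) = 0 := by
    ext i j
    fin_cases i <;> fin_cases j <;>
      simp [Jm, Matrix.mul_apply, Fin.sum_univ_three, Matrix.one_apply]
  rw [pow_succ, pow_two, h]

theorem Jm_reg : (Jm F - 1) ^ 2 ≠ 0 := by
  intro h
  have h1 := congrFun (congrFun h 0) 2
  rw [pow_two] at h1
  simp [Jm, Matrix.mul_apply, Fin.sum_univ_three, Matrix.one_apply] at h1

theorem Jm_sq (h2 : (2 : F) = 0) (v : Fin 3 → F) : (Jm F * Jm F) *ᵥ v = v + v 2 • Pi.single 0 1 := by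
  ext i
  fin_cases i <;>
    simp [Jm, Matrix.mulVec, dotProduct, Matrix.mul_apply, Fin.sum_univ_three]
  · left; linear_combination h2
  · left; linear_combination h2

def J (F : Type*) [Field F] : S3 F := ⟨Jm F, det_Jm⟩
def W (h2 : (2 : F) = 0) (μ : F) : S3 F := ⟨Wm μ, det_Wm h2 μ⟩
def X (μ : F) : S3 F := ⟨Xm μ, det_Xm μ⟩

theorem XJ_conj (h2 : (2 : F) = 0) (μ : F) : X μ * J F * (X μ)⁻¹ = W h2 μ := by
  rw [mul_inv_eq_iff_eq_mul]
  exact Subtype.ext (XJ h2 μ)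

theorem J_vec (x y : F) : ((J F)⁻¹).1 *ᵥ (x • e0 0 F + y • E1 F) = (x - y) • e0 0 F + y • E1 F := by
  have h : (J F).1 *ᵥ ((x - y) • e0 0 F + y • E1 F) = x • e0 0 F + y • E1 F := by
    ext i
    fin_cases i <;>
      simp [J, Jm, e0, E1, Matrix.mulVec, dotProduct, Fin.sum_univ_three]
  rw [← h, inv_mv]

theorem pr2_J : (pr 2 : (Fin 3 → F) →ₗ[F] F) ∘ₗ Matrix.mulVecLin (J F).1 = pr 2 := by
  refine LinearMap.ext fun v => ?_
  change ((Jm F) *ᵥ v) 2 = v 2
  simp [Jm, Matrix.mulVec, dotProduct, Fin.sum_univ_three]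

theorem W_e0 (h2 : (2 : F) = 0) (μ : F) : (W h2 μ).1 *ᵥ e0 0 F = (1 : F) • e0 0 F + μ • E1 F := by
  ext i
  rw [mv_e0]
  fin_cases i <;> simp [W, Wm, e0, E1]

variable {H : Subgroup (S3 F)}

theorem stepJ (h2 : (2 : F) = 0) (μ : F) (hJ : J F ∈ H) (hW : W h2 μ ∈ H) {r r' : F} (hr : RR H r) (hr' : RR H r') :
    RR H (μ ^ 3 * r * r') := by
  have e0' : (W h2 μ).1 2 0 = 0 := rfl
  have e1 : (W h2 μ).1 1 0 = μ := rfl
  have e2 : (W h2 μ).1 2 1 = μ := rfl
  have h1 := clos2 hW e0' hr hr'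
  rw [e1, e2, W_e0] at h1
  set ρ := r * r' * (μ * μ) with hρ
  have h3 := TT_conj h1 hJ
  rw [J_vec, LinearMap.smul_comp, pr2_J] at h3
  have h4' : TT H ((-1 : F) • ((1 - μ) • e0 0 F + μ • E1 F)) (ρ • pr 2) := by
    refine (T_smul_iff (-1 : F)).2 ?_
    have h6 : (-1 : F) • ρ • (pr 2 : (Fin 3 → F) →ₗ[F] F) = -(ρ • pr 2) := by module
    rw [h6]; exact h3.neg
  have h5 := h1.add_left h4'
  have h6 : (1 : F) • e0 0 F + μ • E1 F + (-1 : F) • ((1 - μ) • e0 0 F + μ • E1 F) = μ • e0 0 F := by module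
  rw [h6, T_smul_iff, smul_smul] at h5
  have h7 : μ * ρ = μ ^ 3 * r * r' := by rw [hρ]; ring
  rwa [h7] at h5

theorem J_one (h2 : (2 : F) = 0) (hJ : J F ∈ H) : RR H 1 := by
  refine ⟨?_, SpecialLinearGroup.toGL (J F * J F), Subgroup.mem_map_of_mem _ (mul_mem hJ hJ), fun v => ?_⟩
  · simp [e0]
  · rw [one_smul]; exact Jm_sq h2 v

/-- a subfield containing the cube of a generator -/
theorem cube_top [Finite F] (hq : Nat.card F ≠ 4) (γ : Fˣ) (hγ : ∀ a : Fˣ, a ∈ Subgroup.zpowers γ)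
    (T : Subring F) (hT : (γ : F) ^ 3 ∈ T) : T = ⊤ := by
  classical
  by_contra hne
  obtain ⟨x, hx⟩ : ∃ x, x ∉ T := by
    by_contra hcon
    push Not at hcon
    exact hne (eq_top_iff.2 fun x _ => hcon x)
  have : Fintype F := Fintype.ofFinite F
  have : Fintype T := Fintype.ofFinite T
  letI : Field T := Fintype.fieldOfDomain T
  -- t² ≤ q
  have h1 : Nat.card T * Nat.card T ≤ Nat.card F := by
    rw [← Nat.card_prod]
    refine Nat.card_le_card_of_injective (fun ab : T × T => (ab.1 : F) + ab.2 * x) ?_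
    rintro ⟨a, b⟩ ⟨a', b'⟩ h
    have h2 : (a : F) + b * x = a' + b' * x := h
    by_cases hb : b = b'
    · subst hb
      have : (a : F) = a' := by linear_combination h2
      rw [Subtype.ext this]
    · exfalso
      apply hx
      have h3 : (b : F) - b' ≠ 0 := by
        intro h4; exact hb (Subtype.ext (sub_eq_zero.1 h4))
      have h4 : x = ((b : F) - b')⁻¹ * (a' - a) := by
        field_simp
        linear_combination h2
      rw [h4]
      exact T.mul_mem (inv_mem_sub T (T.sub_mem b.2 b'.2)) (T.sub_mem a'.2 a.2)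
  have hγ3 : (⟨(γ : F) ^ 3, hT⟩ : T) ≠ 0 := by
    intro h
    have : (γ : F) ^ 3 = 0 := congrArg Subtype.val h
    exact γ.ne_zero (pow_eq_zero_iff (by norm_num) |>.1 this)
  have h2 := FiniteField.pow_card_sub_one_eq_one _ hγ3
  have h3 : (γ : F) ^ (3 * (Fintype.card T - 1)) = 1 := by
    have := congrArg Subtype.val h2
    rw [pow_mul]
    exact this
  have h4 : γ ^ (3 * (Fintype.card T - 1)) = 1 := by
    apply Units.ext
    rw [Units.val_pow_eq_pow_val, h3]; rfl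
  have h5 : orderOf γ = Fintype.card F - 1 := by
    rw [orderOf_eq_card_of_forall_mem_zpowers hγ, Nat.card_units, Nat.card_eq_fintype_card]
  have h6 : Fintype.card F - 1 ∣ 3 * (Fintype.card T - 1) := by
    rw [← h5]; exact orderOf_dvd_of_pow_eq_one h4
  rw [Nat.card_eq_fintype_card, Nat.card_eq_fintype_card] at h1
  have h7 : 2 ≤ Fintype.card T := Fintype.one_lt_card
  have h8 := Nat.le_of_dvd (by omega) h6
  rw [Nat.card_eq_fintype_card] at hq
  have h9 : Fintype.card T = 2 := by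
    by_contra h10
    have h11 : 3 ≤ Fintype.card T := by omega
    have h12 : 3 * Fintype.card T ≤ Fintype.card T * Fintype.card T := Nat.mul_le_mul_right _ h11
    omega
  rw [h9] at h1 h8
  omega

theorem even_final [Finite F] (h2 : (2 : F) = 0) (hq : Nat.card F ≠ 4) : ∃ u g : S3 F,
    IsNilpotent (u.1 - 1) ∧ (u.1 - 1) ^ (3 - 1) ≠ 0 ∧ Subgroup.closure ({u, g * u * g⁻¹} : Set (S3 F)) = ⊤ := by
  obtain ⟨γ, hγ⟩ := IsCyclic.exists_generator (α := Fˣ)
  refine ⟨J F, X (γ : F), ⟨3, Jm_nilp⟩, Jm_reg, ?_⟩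
  set H := Subgroup.closure ({J F, X (γ : F) * J F * (X (γ : F))⁻¹} : Set (S3 F)) with hH
  have hJ : J F ∈ H := Subgroup.subset_closure (by simp)
  have hw : X (γ : F) * J F * (X (γ : F))⁻¹ ∈ H := Subgroup.subset_closure (by simp)
  rw [XJ_conj h2] at hw
  have h1 := J_one h2 hJ
  obtain ⟨T, hT, hκ⟩ := sub_field (RG H) 1 h1 ((γ : F) ^ 3) (pow_ne_zero 3 γ.ne_zero)
    (fun T x hx => ⟨by rwa [_root_.inv_one, one_mul], by rwa [one_mul]⟩) one_ne_zero
    (fun r hr r' hr' => stepJ h2 _ hJ hw hr hr')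
  have htop := cube_top hq γ hγ T hκ
  have hall : ∀ c, RR H c := by
    intro c
    have : c ∈ T := by rw [htop]; exact Subring.mem_top c
    exact (hT c).1 this
  exact top_of_full hw rfl γ.ne_zero γ.ne_zero hall

end

/-! the field with four elements -/

open GF4

def e4 (n : ℕ) : GF := ofN n

def u4m : Matrix (Fin 3) (Fin 3) GF := !![1, 1, 0; 0, 1, 1; 0, 0, 1]
def g4m : Matrix (Fin 3) (Fin 3) GF := !![e4 0, e4 1, e4 0; e4 3, e4 2, e4 3; e4 1, e4 1, e4 3]
def w4m : Matrix (Fin 3) (Fin 3) GF := !![e4 0, e4 1, e4 3; e4 1, e4 3, e4 1; e4 0, e4 1, e4 2]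

theorem du4 : u4m.det = 1 := by rw [det_fin_three]; decide +kernel
theorem dg4 : g4m.det = 1 := by rw [det_fin_three]; decide +kernel
theorem dw4 : w4m.det = 1 := by rw [det_fin_three]; decide +kernel

def u4 : S3 GF := ⟨u4m, du4⟩
def g4 : S3 GF := ⟨g4m, dg4⟩
def w4 : S3 GF := ⟨w4m, dw4⟩

theorem gu4 : g4m * u4m = w4m * g4m := by decide +kernel
theorem word4 : u4m * w4m * w4m * u4m * u4m * w4m * u4m * u4m * w4m * w4m = !![1, 0, e4 3; 0, 1, 0; 0, 0, 1] := by
  decide +kernel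
theorem sq4 : u4m * u4m = !![1, 0, 1; 0, 1, 0; 0, 0, 1] := by decide +kernel

theorem all4 : ∀ x : GF, x = 0 ∨ x = 1 ∨ x = e4 3 ∨ x = 1 + e4 3 := by decide +kernel

theorem rr4 {H : Subgroup (S3 GF)} {A : S3 GF} (hA : A ∈ H) {c : GF} (h : A.1 = !![1, 0, c; 0, 1, 0; 0, 0, 1]) :
    RR H c := by
  refine ⟨?_, SpecialLinearGroup.toGL A, Subgroup.mem_map_of_mem _ hA, fun v => ?_⟩
  · simp [e0]
  · change A.1 *ᵥ v = _
    rw [h]
    ext i
    fin_cases i <;> simp [Matrix.mulVec, dotProduct, Fin.sum_univ_three, e0]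

theorem four_final : ∃ u g : S3 GF,
    IsNilpotent (u.1 - 1) ∧ (u.1 - 1) ^ (3 - 1) ≠ 0 ∧ Subgroup.closure ({u, g * u * g⁻¹} : Set (S3 GF)) = ⊤ := by
  refine ⟨u4, g4, ⟨3, ?_⟩, ?_, ?_⟩
  · change (u4m - 1) ^ 3 = 0
    decide +kernel
  · change (u4m - 1) ^ 2 ≠ 0
    decide +kernel
  · set H := Subgroup.closure ({u4, g4 * u4 * g4⁻¹} : Set (S3 GF)) with hH
    have hu : u4 ∈ H := Subgroup.subset_closure (by simp)
    have hw : g4 * u4 * g4⁻¹ ∈ H := Subgroup.subset_closure (by simp)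
    have h1 : g4 * u4 * g4⁻¹ = w4 := by
      rw [mul_inv_eq_iff_eq_mul]
      exact Subtype.ext gu4
    rw [h1] at hw
    have hr1 : RR H 1 := rr4 (mul_mem hu hu) sq4
    have hr3 : RR H (e4 3) := rr4 (mul_mem (mul_mem (mul_mem (mul_mem (mul_mem (mul_mem (mul_mem (mul_mem
      (mul_mem hu hw) hw) hu) hu) hw) hu) hu) hw) hw) word4
    refine top_of_full hw (by decide +kernel) (by decide +kernel) (by decide +kernel) ?_
    intro c
    rcases all4 c with rfl | rfl | rfl | rfl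
    · exact (RG H).zero_mem
    · exact hr1
    · exact hr3
    · exact (RG H).add_mem hr1 hr3

/-! transfer -/

noncomputable def mapSL {F F' : Type*} [Field F] [Field F'] (σ : F ≃+* F') : S3 F ≃* S3 F' :=
  MulEquiv.ofBijective (Matrix.SpecialLinearGroup.map (σ : F →+* F')) (by
    constructor
    · intro a b h
      apply Subtype.ext
      ext i j
      have := congrFun (congrFun (congrArg Subtype.val h) i) j
      exact σ.injective this
    · intro b
      refine ⟨Matrix.SpecialLinearGroup.map (σ.symm : F' →+* F) b, ?_⟩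
      apply Subtype.ext
      ext i j
      change σ (σ.symm (b.1 i j)) = _
      rw [RingEquiv.apply_symm_apply])

theorem transfer {F F' : Type*} [Field F] [Field F'] (σ : F ≃+* F')
    (h : ∃ u g : S3 F, IsNilpotent (u.1 - 1) ∧ (u.1 - 1) ^ (3 - 1) ≠ 0 ∧
      Subgroup.closure ({u, g * u * g⁻¹} : Set (S3 F)) = ⊤) :
    ∃ u g : S3 F', IsNilpotent (u.1 - 1) ∧ (u.1 - 1) ^ (3 - 1) ≠ 0 ∧
      Subgroup.closure ({u, g * u * g⁻¹} : Set (S3 F')) = ⊤ := by
  obtain ⟨u, g, h1, h2, h3⟩ := h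
  have e1 : (mapSL σ u).1 - 1 = (RingHom.mapMatrix (σ : F →+* F')) (u.1 - 1) := by
    rw [map_sub, map_one]; rfl
  refine ⟨mapSL σ u, mapSL σ g, ?_, ?_, ?_⟩
  · rw [e1]; exact h1.map _
  · rw [e1, ← map_pow]
    intro h
    apply h2
    ext i j
    have := congrFun (congrFun h i) j
    exact (map_eq_zero (σ : F →+* F')).1 this
  · have h4 := congrArg (Subgroup.map (mapSL σ).toMonoidHom) h3
    have h5 := Subgroup.map_top_of_surjective (mapSL σ).toMonoidHom (mapSL σ).surjective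
    rw [MonoidHom.map_closure, h5, Set.image_pair] at h4
    rw [← h4]
    congr 1
    simp

theorem final {F : Type*} [Field F] [Fintype F] :
    ∃ u g : Matrix.SpecialLinearGroup (Fin 3) F, IsNilpotent ((u : Matrix (Fin 3) (Fin 3) F) - 1) ∧ ((u : Matrix (Fin 3) (Fin 3) F) - 1) ^ (3 - 1) ≠ 0 ∧
      Subgroup.closure ({u, g * u * g⁻¹} : Set (Matrix.SpecialLinearGroup (Fin 3) F)) = ⊤ := by
  by_cases h2 : (2 : F) = 0
  · by_cases hq : Nat.card F = 4
    · rw [Nat.card_eq_fintype_card] at hq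
      exact transfer (FiniteField.ringEquivOfCardEq (by rw [hq, card_GF])) four_final
    · exact even_final h2 hq
  · exact odd_final h2

end Cfsg.Agent.H13.RU3
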