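import Mathlib
import Cfsg.Agent.H13_RU

/-! `SL_n` (`n ≥ 4`) by two regular unipotent elements: the closure lemma. -/

namespace Cfsg.Agent.H13.RU4

open Matrix H29.Trv

section abs

variable {ι : Type*} [Fintype ι] [DecidableEq ι] {F : Type*} [Field F]
variable {M : Subgroup (GL ι F)}

/-- functionals `α` with all `T M x (c α)` -/
def Fn (M : Subgroup (GL ι F)) (x : ι → F) : Submodule F ((ι → F) →ₗ[F] F) where
  carrier := {α | ∀ c : F, T M x (c • α)}
  add_mem' := by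
    intro a b ha hb c
    rw [smul_add]; exact (ha c).add_right (hb c)
  zero_mem' := by intro c; rw [smul_zero]; exact T_zero_right _
  smul_mem' := by intro d a ha c; rw [smul_smul]; exact ha _

theorem mem_Fn {x : ι → F} {α : (ι → F) →ₗ[F] F} : α ∈ Fn M x ↔ ∀ c : F, T M x (c • α) := Iff.rfl

theorem Fn_self {x : ι → F} {α : (ι → F) →ₗ[F] F} (h : α ∈ Fn M x) : α x = 0 := by
  have := (h 1).apply_self
  rwa [one_smul] at this

theorem rule {x : ι → F} {h : GL ι F} (hh : h ∈ M) {α β : (ι → F) →ₗ[F] F} (hα : α ∈ Fn M x)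
    (hαx : α ((h : Matrix ι ι F) *ᵥ x) ≠ 0) (hβ : β ∈ Fn M x)
    (hβx : β (((h⁻¹ : GL ι F) : Matrix ι ι F) *ᵥ x) = 0) : β ∘ₗ lin h⁻¹ ∈ Fn M x := by
  intro c
  have h1 := (hβ (c / α ((h : Matrix ι ι F) *ᵥ x))).conj hh
  have h2 := T.comm h1 (hα 1) (by
    rw [LinearMap.comp_apply, lin_apply, LinearMap.smul_apply, hβx, smul_zero])
  rw [one_smul, LinearMap.smul_comp, smul_smul, mul_div_cancel₀ _ hαx] at h2
  exact h2

/-- the common kernel -/
def Dk (M : Subgroup (GL ι F)) (x : ι → F) : Submodule F (ι → F) where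
  carrier := {v | ∀ α ∈ Fn M x, α v = 0}
  add_mem' := by
    intro a b ha hb α hα
    rw [map_add, ha α hα, hb α hα, add_zero]
  zero_mem' := by intro α _; rw [map_zero]
  smul_mem' := by intro c v hv α hα; rw [map_smul, hv α hα, smul_zero]

theorem mem_Dk {x v : ι → F} : v ∈ Dk M x ↔ ∀ α ∈ Fn M x, α v = 0 := Iff.rfl

theorem self_mem_Dk (x : ι → F) : x ∈ Dk M x := fun _ hα => Fn_self hα

/-- the dual form of the rule -/
theorem rule_dual {x : ι → F} {h : GL ι F} (hh : h ∈ M) (hx : (h : Matrix ι ι F) *ᵥ x ∉ Dk M x) {v : ι → F}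
    (hv : v ∈ Dk M x) : ∃ d ∈ Dk M x, ∃ μ : F, v = (h : Matrix ι ι F) *ᵥ d + μ • x := by
  have hx' : ∃ α ∈ Fn M x, α ((h : Matrix ι ι F) *ᵥ x) ≠ 0 := by
    by_contra hcon
    push Not at hcon
    exact hx hcon
  obtain ⟨α, hα, hαx⟩ := hx'
  have key : ∀ β ∈ Fn M x, β (((h⁻¹ : GL ι F) : Matrix ι ι F) *ᵥ x) = 0 → β (((h⁻¹ : GL ι F) : Matrix ι ι F) *ᵥ v) = 0 :=
    fun β hβ hβx => hv _ (rule hh hα hαx hβ hβx)
  by_cases hall : ∀ β ∈ Fn M x, β (((h⁻¹ : GL ι F) : Matrix ι ι F) *ᵥ x) = 0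
  · refine ⟨((h⁻¹ : GL ι F) : Matrix ι ι F) *ᵥ v, fun β hβ => key β hβ (hall β hβ), 0, ?_⟩
    rw [self_inv_mulVec, zero_smul, add_zero]
  · push Not at hall
    obtain ⟨β₀, hβ₀, hβ₀x⟩ := hall
    set b := β₀ (((h⁻¹ : GL ι F) : Matrix ι ι F) *ᵥ x) with hb
    set μ := β₀ (((h⁻¹ : GL ι F) : Matrix ι ι F) *ᵥ v) / b with hμ
    refine ⟨((h⁻¹ : GL ι F) : Matrix ι ι F) *ᵥ (v - μ • x), ?_, μ, ?_⟩
    · intro β hβ
      have h1 := key (β - (β (((h⁻¹ : GL ι F) : Matrix ι ι F) *ᵥ x) / b) • β₀)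
        ((Fn M x).sub_mem hβ ((Fn M x).smul_mem _ hβ₀)) (by
          rw [LinearMap.sub_apply, LinearMap.smul_apply, smul_eq_mul, ← hb, div_mul_cancel₀ _ hβ₀x, sub_self])
      rw [LinearMap.sub_apply, LinearMap.smul_apply, smul_eq_mul] at h1
      rw [mulVec_sub, mulVec_smul, map_sub, map_smul, smul_eq_mul, hμ]
      rw [← h1]
      ring
    · rw [self_inv_mulVec]
      abel

/-- the closure lemma -/
theorem closure_lemma {x : ι → F} {φ : (ι → F) →ₗ[F] F} {g : GL ι F} (hg : g ∈ M)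
    (hφ : φ ∈ Fn M x)
    (h1 : φ (((g⁻¹ : GL ι F) : Matrix ι ι F) *ᵥ x) = 0)
    (h2 : φ ((g : Matrix ι ι F) *ᵥ x) ≠ 0)
    (h3 : ((g⁻¹ : GL ι F) : Matrix ι ι F) *ᵥ x ∉ Dk M x)
    (hcyc : ∀ E : Submodule F (ι → F), (∀ v ∈ E, (g : Matrix ι ι F) *ᵥ v ∈ E) → x ∈ E → E = ⊤)
    (hcoc : ∀ d : ι → F, (∀ E : Submodule F (ι → F), (∀ v ∈ E, (g : Matrix ι ι F) *ᵥ v ∈ E) → d ∈ E → ∃ v ∈ E, φ v ≠ 0) ∨ d = 0) :
    x ∈ ctr M := by
  set D := Dk M x with hD
  have hx : x ∈ D := self_mem_Dk x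
  have hux : (g : Matrix ι ι F) *ᵥ x ∉ D := fun h => h2 (h φ hφ)
  have hgi : g⁻¹ ∈ M := M.inv_mem hg
  -- (a) and (b)
  have ha : ∀ v ∈ D, ∃ d ∈ D, ∃ μ : F, v = (g : Matrix ι ι F) *ᵥ d + μ • x := fun v hv => rule_dual hg hux hv
  have hb : ∀ v ∈ D, ∃ d ∈ D, ∃ μ : F, (g : Matrix ι ι F) *ᵥ v = d + μ • ((g : Matrix ι ι F) *ᵥ x) := by
    intro v hv
    obtain ⟨d, hd, μ, h⟩ := rule_dual hgi h3 hv
    refine ⟨d, hd, μ, ?_⟩
    rw [h, mulVec_add, self_inv_mulVec, mulVec_smul]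
  -- the second functional
  have hφ1 : φ ∘ₗ lin g⁻¹ ∈ Fn M x := rule hg hφ h2 hφ h1
  have hDx : D = Submodule.span F {x} := by
    set x1 := (g : Matrix ι ι F) *ᵥ x with hx1
    set x2 := (g : Matrix ι ι F) *ᵥ x1 with hx2
    -- no invariant `D + F x₁`
    have hE : ¬ (∃ d ∈ D, ∃ ρ : F, x2 = d + ρ • x1) := by
      rintro ⟨d, hd, ρ, h⟩
      have hE1 := hcyc (D ⊔ Submodule.span F {x1}) (by
        intro v hv
        obtain ⟨a, haD, b, hb', rfl⟩ := Submodule.mem_sup.1 hv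
        obtain ⟨c, rfl⟩ := Submodule.mem_span_singleton.1 hb'
        rw [mulVec_add, mulVec_smul, ← hx2, h]
        obtain ⟨d', hd', μ, h'⟩ := hb a haD
        rw [h']
        have : d' + μ • x1 + c • (d + ρ • x1) = (d' + c • d) + (μ + c * ρ) • x1 := by module
        rw [this]
        exact Submodule.add_mem_sup (D.add_mem hd' (D.smul_mem _ hd)) (Submodule.smul_mem _ _ (Submodule.mem_span_singleton_self _)))
        (Submodule.mem_sup_left hx)
      have hk : ∀ v ∈ D ⊔ Submodule.span F {x1}, (φ ∘ₗ lin g⁻¹) v = 0 := by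
        intro v hv
        obtain ⟨a, haD, b, hb', rfl⟩ := Submodule.mem_sup.1 hv
        obtain ⟨c, rfl⟩ := Submodule.mem_span_singleton.1 hb'
        rw [map_add, haD _ hφ1, zero_add, map_smul, LinearMap.comp_apply, lin_apply, hx1, inv_mulVec_self,
          Fn_self hφ, smul_zero]
      have h4 := hk x2 (by rw [hE1]; exact Submodule.mem_top)
      rw [LinearMap.comp_apply, lin_apply, hx2, inv_mulVec_self] at h4
      exact h2 h4
    by_cases hm2 : ((g⁻¹ : GL ι F) : Matrix ι ι F) *ᵥ (((g⁻¹ : GL ι F) : Matrix ι ι F) *ᵥ x) ∈ D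
    · -- `x_{-1} ∈ D + F x₁`
      exfalso
      obtain ⟨d, hd, μ, h⟩ := hb _ hm2
      rw [self_inv_mulVec] at h
      have hμ : μ ≠ 0 := by
        intro h0
        rw [h0, zero_smul, add_zero] at h
        rw [h] at h3
        exact h3 hd
      -- `E` is closed under `g⁻¹`
      set E := D ⊔ Submodule.span F {x1} with hEdef
      have hx1E : x1 ∈ E := Submodule.mem_sup_right (Submodule.mem_span_singleton_self _)
      have hxm1 : ((g⁻¹ : GL ι F) : Matrix ι ι F) *ᵥ x ∈ E := by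
        rw [h]
        exact E.add_mem (Submodule.mem_sup_left hd) (E.smul_mem _ hx1E)
      have hinv : ∀ v ∈ E, ((g⁻¹ : GL ι F) : Matrix ι ι F) *ᵥ v ∈ E := by
        intro v hv
        obtain ⟨a, haD, b, hb', rfl⟩ := Submodule.mem_sup.1 hv
        obtain ⟨c, rfl⟩ := Submodule.mem_span_singleton.1 hb'
        rw [mulVec_add, mulVec_smul, hx1, inv_mulVec_self]
        refine E.add_mem ?_ (E.smul_mem _ (Submodule.mem_sup_left hx))
        obtain ⟨d', hd', μ', h'⟩ := ha a haD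
        rw [h', mulVec_add, inv_mulVec_self, mulVec_smul]
        exact E.add_mem (Submodule.mem_sup_left hd') (E.smul_mem _ hxm1)
      -- hence under `g`
      have hle : E.map (linE g⁻¹ : (ι → F) ≃ₗ[F] (ι → F)).toLinearMap ≤ E := by
        rintro _ ⟨v, hv, rfl⟩
        exact hinv v hv
      have heq : E.map (linE g⁻¹ : (ι → F) ≃ₗ[F] (ι → F)).toLinearMap = E :=
        Submodule.eq_of_le_of_finrank_eq hle (LinearEquiv.finrank_map_eq _ _)
      have hx2E : x2 ∈ E := by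
        rw [← heq] at hx1E
        obtain ⟨w, hw, hw2⟩ := hx1E
        have : w = x2 := by
          rw [hx2, ← hw2]
          exact (self_inv_mulVec g w).symm
        rw [← this]; exact hw
      obtain ⟨a, haD, b, hb', hab⟩ := Submodule.mem_sup.1 hx2E
      obtain ⟨c, rfl⟩ := Submodule.mem_span_singleton.1 hb'
      exact hE ⟨a, haD, c, hab.symm⟩
    · have hgi2 : g⁻¹ * g⁻¹ ∈ M := M.mul_mem hgi hgi
      have hc : ∀ v ∈ D, ∃ d ∈ D, ∃ μ : F, (g : Matrix ι ι F) *ᵥ ((g : Matrix ι ι F) *ᵥ v) = d + μ • x2 := by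
        intro v hv
        obtain ⟨d, hd, μ, h⟩ := rule_dual hgi2 (by rw [H29.Trv.mul_apply]; exact hm2) hv
        refine ⟨d, hd, μ, ?_⟩
        rw [h, mulVec_add, mulVec_smul, mulVec_add, mulVec_smul, H29.Trv.mul_apply, self_inv_mulVec, self_inv_mulVec]
      -- `D₁ = {v ∈ D : g v ∈ D}` is invariant
      let D1 : Submodule F (ι → F) := D ⊓ D.comap (lin g)
      have hD1 : ∀ v, v ∈ D1 ↔ v ∈ D ∧ (g : Matrix ι ι F) *ᵥ v ∈ D := fun v => Iff.rfl
      have hD1inv : ∀ v ∈ D1, (g : Matrix ι ι F) *ᵥ v ∈ D1 := by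
        intro v hv
        obtain ⟨hv1, hv2⟩ := (hD1 v).1 hv
        refine (hD1 _).2 ⟨hv2, ?_⟩
        obtain ⟨d, hd, l, h⟩ := hb _ hv2
        obtain ⟨d', hd', μ, h'⟩ := hc v hv1
        rw [h] at h' ⊢
        by_cases hl : l = 0
        · rw [hl, zero_smul, add_zero]; exact hd
        · exfalso
          have hμ : μ ≠ 0 := by
            intro h0
            rw [h0, zero_smul, add_zero] at h'
            apply hux
            have : l • x1 ∈ D := by
              have e : l • x1 = d' - d := by rw [← h']; abel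
              rw [e]; exact D.sub_mem hd' hd
            have := D.smul_mem l⁻¹ this
            rwa [smul_smul, inv_mul_cancel₀ hl, one_smul] at this
          apply hE
          refine ⟨μ⁻¹ • (d - d'), D.smul_mem _ (D.sub_mem hd hd'), μ⁻¹ * l, ?_⟩
          have e : μ • x2 = (d - d') + l • x1 := by
            have : μ • x2 = (d' + μ • x2) - d' := by abel
            rw [this, ← h']; abel
          have e2 : x2 = μ⁻¹ • (μ • x2) := by rw [smul_smul, inv_mul_cancel₀ hμ, one_smul]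
          rw [e2, e, smul_add, smul_smul]
      have hD10 : ∀ v ∈ D1, v = 0 := by
        intro v hv
        rcases hcoc v with h | h
        · obtain ⟨w, hw, hw2⟩ := h D1 hD1inv hv
          exact absurd (((hD1 w).1 hw).1 φ hφ) hw2
        · exact h
      refine le_antisymm ?_ ?_
      · intro v hv
        obtain ⟨d, hd, l, h⟩ := hb v hv
        have h5 : v - l • x ∈ D1 := by
          refine (hD1 _).2 ⟨D.sub_mem hv (D.smul_mem _ hx), ?_⟩
          rw [mulVec_sub, mulVec_smul, h, ← hx1, add_sub_cancel_right]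
          exact hd
        have h6 := sub_eq_zero.1 (hD10 _ h5)
        rw [h6]
        exact Submodule.smul_mem _ _ (Submodule.mem_span_singleton_self _)
      · rw [Submodule.span_singleton_le_iff_mem]; exact hx
  -- conclusion
  have hco : (Fn M x).dualCoannihilator = D := by
    ext v
    rw [Submodule.mem_dualCoannihilator]
    exact Iff.rfl
  have hFn : Fn M x = (Submodule.span F {x}).dualAnnihilator := by
    rw [← hDx, ← hco, Subspace.dualCoannihilator_dualAnnihilator_eq]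
  intro ψ hψ
  have h6 : ψ ∈ Fn M x := by
    rw [hFn, Submodule.mem_dualAnnihilator]
    intro w hw
    obtain ⟨c, rfl⟩ := Submodule.mem_span_singleton.1 hw
    rw [map_smul, hψ, smul_zero]
  have := h6 1
  rwa [one_smul] at this

end abs

end Cfsg.Agent.H13.RU4
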