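import Mathlib
import Cfsg.Agent.H13_RU4

/-! `SL_n` (`n ≥ 4`) by two regular unipotent elements: transvections from homologies. -/

namespace Cfsg.Agent.H13.RU4

open Matrix H29.Trv

section heis

variable {ι : Type*} [Fintype ι] [DecidableEq ι] {F : Type*} [Field F]
variable {M : Subgroup (GL ι F)}

/-- `Y z = z + φ(z) v`; inverse -/
theorem refl_inv {Y : GL ι F} {v : ι → F} {φ : (ι → F) →ₗ[F] F} (h : ∀ z, (Y : Matrix ι ι F) *ᵥ z = z + φ z • v)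
    {τ : F} (hτ : 1 + φ v = τ) (hτ0 : τ ≠ 0) (z : ι → F) :
    ((Y⁻¹ : GL ι F) : Matrix ι ι F) *ᵥ z = z - (τ⁻¹ * φ z) • v := by
  have h1 : (Y : Matrix ι ι F) *ᵥ (z - (τ⁻¹ * φ z) • v) = z := by
    rw [h, map_sub, map_smul, smul_eq_mul]
    have e1 : φ z - τ⁻¹ * φ z * φ v = τ⁻¹ * φ z := by
      have : φ v = τ - 1 := by rw [← hτ]; ring
      rw [this]
      field_simp
      ring
    rw [e1, sub_add_cancel]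
  conv_lhs => rw [← h1]
  rw [inv_mulVec_self]

structure Dat (M : Subgroup (GL ι F)) (x₀ x₁ x₂ : ι → F) (ψ₀ ψ₁ ψ₂ : (ι → F) →ₗ[F] F) (τ a b : F) where
  Y₀ : GL ι F
  Y₁ : GL ι F
  Y₂ : GL ι F
  h₀ : ∀ z, (Y₀ : Matrix ι ι F) *ᵥ z = z + ψ₀ z • x₀
  h₁ : ∀ z, (Y₁ : Matrix ι ι F) *ᵥ z = z + ψ₁ z • x₁
  h₂ : ∀ z, (Y₂ : Matrix ι ι F) *ᵥ z = z + ψ₂ z • x₂
  h01 : ψ₀ x₁ = 0
  h02 : ψ₀ x₂ = 0
  h12 : ψ₁ x₂ = 0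
  h00 : 1 + ψ₀ x₀ = τ
  h11 : 1 + ψ₁ x₁ = τ
  h22 : 1 + ψ₂ x₂ = τ
  h10 : ψ₁ x₀ = a
  h21 : ψ₂ x₁ = a
  h20 : ψ₂ x₀ = b
  hτ : τ ≠ 0
  hA : Y₀ * Y₁⁻¹ ∈ M
  hB : Y₁ * Y₂⁻¹ ∈ M

variable {x₀ x₁ x₂ : ι → F} {ψ₀ ψ₁ ψ₂ : (ι → F) →ₗ[F] F} {τ a b : F}

/-- elements of the Heisenberg group -/
def Hb (M : Subgroup (GL ι F)) (x₁ x₂ : ι → F) (ψ₀ ψ₁ : (ι → F) →ₗ[F] F) (ν l μ : F) : Prop :=
  ∃ g ∈ M, ∀ z, (g : Matrix ι ι F) *ᵥ z = z + (ν * ψ₀ z) • x₁ + (l * ψ₁ z + μ * ψ₀ z) • x₂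

theorem Hb_T {μ : F} (h : Hb M x₁ x₂ ψ₀ ψ₁ 0 0 μ) (h02 : ψ₀ x₂ = 0) : T M x₂ (μ • ψ₀) := by
  obtain ⟨g, hg, h⟩ := h
  refine ⟨by rw [LinearMap.smul_apply, h02, smul_zero], g, hg, fun z => ?_⟩
  rw [h, LinearMap.smul_apply, smul_eq_mul]
  simp

theorem Hb_mul {δ : F} (h01 : ψ₀ x₁ = 0) (h02 : ψ₀ x₂ = 0) (h12 : ψ₁ x₂ = 0) (h11 : ψ₁ x₁ = δ)
    {ν l μ ν' l' μ' : F} (h : Hb M x₁ x₂ ψ₀ ψ₁ ν l μ) (h' : Hb M x₁ x₂ ψ₀ ψ₁ ν' l' μ') :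
    Hb M x₁ x₂ ψ₀ ψ₁ (ν + ν') (l + l') (μ + μ' + l * ν' * δ) := by
  obtain ⟨g, hg, h⟩ := h
  obtain ⟨g', hg', h'⟩ := h'
  refine ⟨g * g', M.mul_mem hg hg', fun z => ?_⟩
  rw [H29.Trv.mul_apply, h', h]
  simp only [map_add, map_smul, h01, h02, h12, h11, smul_eq_mul, mul_zero, add_zero, zero_mul]
  module

theorem Hb_inv {δ : F} (h01 : ψ₀ x₁ = 0) (h02 : ψ₀ x₂ = 0) (h12 : ψ₁ x₂ = 0) (h11 : ψ₁ x₁ = δ)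
    {ν l μ : F} (h : Hb M x₁ x₂ ψ₀ ψ₁ ν l μ) :
    Hb M x₁ x₂ ψ₀ ψ₁ (-ν) (-l) (-μ + l * ν * δ) := by
  obtain ⟨g, hg, h⟩ := h
  refine ⟨g⁻¹, M.inv_mem hg, fun z => ?_⟩
  have h1 : (g : Matrix ι ι F) *ᵥ (z + (-ν * ψ₀ z) • x₁ + (-l * ψ₁ z + (-μ + l * ν * δ) * ψ₀ z) • x₂) = z := by
    rw [h]
    simp only [map_add, map_smul, h01, h02, h12, h11, smul_eq_mul, mul_zero, add_zero, zero_mul]
    module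
  conv_lhs => rw [← h1]
  rw [inv_mulVec_self]

/-- the first commutator -/
theorem first (D : Dat M x₀ x₁ x₂ ψ₀ ψ₁ ψ₂ τ a b) :
    ∃ μ : F, Hb M x₁ x₂ ψ₀ ψ₁ (a * τ⁻¹) (a * τ⁻¹ ^ 2) μ := by
  obtain ⟨Y₀, Y₁, Y₂, h₀, h₁, h₂, h01, h02, h12, h00, h11, h22, h10, h21, h20, hτ, hA, hB⟩ := D
  refine ⟨-(τ⁻¹ ^ 2 * b + τ⁻¹ ^ 3 * a ^ 2), (Y₁ * Y₂⁻¹) * (Y₀ * Y₁⁻¹) * (Y₁ * Y₂⁻¹)⁻¹ * (Y₀ * Y₁⁻¹)⁻¹,
    M.mul_mem (M.mul_mem (M.mul_mem hB hA) (M.inv_mem hB)) (M.inv_mem hA), fun z => ?_⟩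
  have i₀ := refl_inv h₀ h00 hτ
  have i₁ := refl_inv h₁ h11 hτ
  have i₂ := refl_inv h₂ h22 hτ
  have e00 : ψ₀ x₀ = τ - 1 := by rw [← h00]; ring
  have e11 : ψ₁ x₁ = τ - 1 := by rw [← h11]; ring
  have e22 : ψ₂ x₂ = τ - 1 := by rw [← h22]; ring
  have hw : (Y₁ * Y₂⁻¹) * (Y₀ * Y₁⁻¹) * (Y₁ * Y₂⁻¹)⁻¹ * (Y₀ * Y₁⁻¹)⁻¹ = Y₁ * (Y₂⁻¹ * (Y₀ * (Y₁⁻¹ * (Y₂ * Y₀⁻¹)))) := by
    group
  rw [hw, H29.Trv.mul_apply, H29.Trv.mul_apply, H29.Trv.mul_apply, H29.Trv.mul_apply, H29.Trv.mul_apply, i₀]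
  have s1 : (Y₂ : Matrix ι ι F) *ᵥ (z - (τ⁻¹ * ψ₀ z) • x₀) =
      z - (τ⁻¹ * ψ₀ z) • x₀ + (ψ₂ z - τ⁻¹ * ψ₀ z * b) • x₂ := by
    rw [h₂, map_sub, map_smul, h20, smul_eq_mul]
  rw [s1, i₁]
  have s2 : ψ₁ (z - (τ⁻¹ * ψ₀ z) • x₀ + (ψ₂ z - τ⁻¹ * ψ₀ z * b) • x₂) = ψ₁ z - τ⁻¹ * ψ₀ z * a := by
    rw [map_add, map_sub, map_smul, map_smul, h10, h12, smul_eq_mul, smul_zero, add_zero]
  rw [s2, h₀]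
  have s3 : ψ₀ (z - (τ⁻¹ * ψ₀ z) • x₀ + (ψ₂ z - τ⁻¹ * ψ₀ z * b) • x₂ - (τ⁻¹ * (ψ₁ z - τ⁻¹ * ψ₀ z * a)) • x₁) =
      τ⁻¹ * ψ₀ z := by
    rw [map_sub, map_add, map_sub, map_smul, map_smul, map_smul, e00, h01, h02, smul_eq_mul, smul_zero, add_zero,
      smul_zero, sub_zero]
    field_simp
    ring
  rw [s3]
  have s4 : z - (τ⁻¹ * ψ₀ z) • x₀ + (ψ₂ z - τ⁻¹ * ψ₀ z * b) • x₂ - (τ⁻¹ * (ψ₁ z - τ⁻¹ * ψ₀ z * a)) • x₁ +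
      (τ⁻¹ * ψ₀ z) • x₀ = z + (ψ₂ z - τ⁻¹ * ψ₀ z * b) • x₂ - (τ⁻¹ * (ψ₁ z - τ⁻¹ * ψ₀ z * a)) • x₁ := by abel
  rw [s4, i₂]
  have s5 : ψ₂ (z + (ψ₂ z - τ⁻¹ * ψ₀ z * b) • x₂ - (τ⁻¹ * (ψ₁ z - τ⁻¹ * ψ₀ z * a)) • x₁) =
      ψ₂ z + (ψ₂ z - τ⁻¹ * ψ₀ z * b) * (τ - 1) - (τ⁻¹ * (ψ₁ z - τ⁻¹ * ψ₀ z * a)) * a := by
    rw [map_sub, map_add, map_smul, map_smul, e22, h21, smul_eq_mul, smul_eq_mul]
  rw [s5, h₁]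
  have s6 : ψ₁ (z + (ψ₂ z - τ⁻¹ * ψ₀ z * b) • x₂ - (τ⁻¹ * (ψ₁ z - τ⁻¹ * ψ₀ z * a)) • x₁ -
      (τ⁻¹ * (ψ₂ z + (ψ₂ z - τ⁻¹ * ψ₀ z * b) * (τ - 1) - (τ⁻¹ * (ψ₁ z - τ⁻¹ * ψ₀ z * a)) * a)) • x₂) =
      ψ₁ z - (τ⁻¹ * (ψ₁ z - τ⁻¹ * ψ₀ z * a)) * (τ - 1) := by
    rw [map_sub, map_sub, map_add, map_smul, map_smul, map_smul, e11, h12]
    simp only [smul_eq_mul, mul_zero, add_zero, sub_zero]
  rw [s6]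
  match_scalars <;> field_simp <;> ring

theorem A_act (D : Dat M x₀ x₁ x₂ ψ₀ ψ₁ ψ₂ τ a b) {ν l μ : F} (h : Hb M x₁ x₂ ψ₀ ψ₁ ν l μ) :
    Hb M x₁ x₂ ψ₀ ψ₁ (τ⁻¹ ^ 2 * ν) (τ * l) (τ⁻¹ * μ - l * a) := by
  obtain ⟨Y₀, Y₁, Y₂, h₀, h₁, h₂, h01, h02, h12, h00, h11, h22, h10, h21, h20, hτ, hA, hB⟩ := D
  obtain ⟨g, hg, h⟩ := h
  refine ⟨(Y₀ * Y₁⁻¹) * g * (Y₀ * Y₁⁻¹)⁻¹, M.mul_mem (M.mul_mem hA hg) (M.inv_mem hA), fun z => ?_⟩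
  have i₀ := refl_inv h₀ h00 hτ
  have i₁ := refl_inv h₁ h11 hτ
  have e00 : ψ₀ x₀ = τ - 1 := by rw [← h00]; ring
  have e11 : ψ₁ x₁ = τ - 1 := by rw [← h11]; ring
  obtain ⟨z', rfl⟩ : ∃ z', z = ((Y₀ * Y₁⁻¹ : GL ι F) : Matrix ι ι F) *ᵥ z' := ⟨_, (self_inv_mulVec (Y₀ * Y₁⁻¹) z).symm⟩
  rw [H29.Trv.mul_apply _ (Y₀ * Y₁⁻¹)⁻¹, inv_mulVec_self, H29.Trv.mul_apply, h, mulVec_add, mulVec_add, mulVec_smul,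
    mulVec_smul]
  have c0 : ∀ z', ψ₀ (((Y₀ * Y₁⁻¹ : GL ι F) : Matrix ι ι F) *ᵥ z') = τ * ψ₀ z' := by
    intro z'
    rw [H29.Trv.mul_apply, i₁, h₀]
    simp only [map_add, map_sub, map_smul, e00, h01, smul_eq_mul, mul_zero, sub_zero]
    ring
  have c1 : ∀ z', ψ₁ (((Y₀ * Y₁⁻¹ : GL ι F) : Matrix ι ι F) *ᵥ z') = τ⁻¹ * ψ₁ z' + a * ψ₀ z' := by
    intro z'
    rw [H29.Trv.mul_apply, i₁, h₀]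
    simp only [map_add, map_sub, map_smul, e11, h01, h10, smul_eq_mul, mul_zero, sub_zero]
    field_simp
    ring
  have d1 : ((Y₀ * Y₁⁻¹ : GL ι F) : Matrix ι ι F) *ᵥ x₁ = τ⁻¹ • x₁ := by
    rw [H29.Trv.mul_apply, i₁, h₀]
    simp only [map_sub, map_smul, e11, h01, smul_eq_mul, mul_zero, sub_zero, zero_smul, add_zero]
    match_scalars
    field_simp
    ring
  have d2 : ((Y₀ * Y₁⁻¹ : GL ι F) : Matrix ι ι F) *ᵥ x₂ = x₂ := by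
    rw [H29.Trv.mul_apply, i₁, h₀]
    simp only [map_sub, map_smul, h12, h02, smul_eq_mul, mul_zero, sub_zero, zero_smul, add_zero]
  rw [c0, c1, d1, d2]
  match_scalars <;> field_simp <;> ring

theorem torus (D : Dat M x₀ x₁ x₂ ψ₀ ψ₁ ψ₂ τ a b) {l : F} (h : T M x₂ (l • ψ₀)) : T M x₂ ((τ * l) • ψ₀) := by
  obtain ⟨Y₀, Y₁, Y₂, h₀, h₁, h₂, h01, h02, h12, h00, h11, h22, h10, h21, h20, hτ, hA, hB⟩ := D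
  have hg : Y₂ * Y₁⁻¹ ∈ M := by
    have := M.inv_mem hB
    rwa [_root_.mul_inv_rev, inv_inv] at this
  have i₁ := refl_inv h₁ h11 hτ
  have e22 : ψ₂ x₂ = τ - 1 := by rw [← h22]; ring
  have h1 := h.conj hg
  have d2 : ((Y₂ * Y₁⁻¹ : GL ι F) : Matrix ι ι F) *ᵥ x₂ = τ • x₂ := by
    rw [H29.Trv.mul_apply, i₁, h₂, h12, mul_zero, zero_smul, sub_zero, e22]
    module
  have c0 : ∀ z', ψ₀ (((Y₂ * Y₁⁻¹ : GL ι F) : Matrix ι ι F) *ᵥ z') = ψ₀ z' := by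
    intro z'
    rw [H29.Trv.mul_apply, i₁, h₂]
    simp only [map_add, map_sub, map_smul, h01, h02, smul_eq_mul, mul_zero, sub_zero, add_zero]
  have c1 : (l • ψ₀) ∘ₗ lin (Y₂ * Y₁⁻¹)⁻¹ = l • ψ₀ := by
    refine LinearMap.ext fun z => ?_
    rw [LinearMap.comp_apply, LinearMap.smul_apply, LinearMap.smul_apply, lin_apply]
    rw [← c0, self_inv_mulVec]
  rw [d2, c1] at h1
  have h2 := (T_smul_iff τ).1 h1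
  rwa [smul_smul] at h2

theorem trans_one (D : Dat M x₀ x₁ x₂ ψ₀ ψ₁ ψ₂ 1 a b) : T M x₂ ((a ^ 2) • ψ₀) := by
  obtain ⟨μ, h⟩ := first D
  have h' := A_act D h
  have e11 : ψ₁ x₁ = 0 := by have := D.h11; linear_combination this
  have h2 := Hb_mul D.h01 D.h02 D.h12 e11 h (Hb_inv D.h01 D.h02 D.h12 e11 h')
  have h3 : Hb M x₁ x₂ ψ₀ ψ₁ 0 0 (a ^ 2) := by
    convert h2 using 1
    · simp
    · simp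
    · simp; ring
  exact Hb_T h3 D.h02

theorem trans_comm (D : Dat M x₀ x₁ x₂ ψ₀ ψ₁ ψ₂ τ a b) (ha : a ≠ 0) (hτ1 : τ ≠ 1) (hτ3 : τ ^ 3 ≠ 1) :
    ∃ c : F, c ≠ 0 ∧ T M x₂ (c • ψ₀) := by
  obtain ⟨μ, h⟩ := first D
  have h' := A_act D h
  have e11 : ψ₁ x₁ = τ - 1 := by have := D.h11; linear_combination this
  have hτ := D.hτ
  have h1 := Hb_mul D.h01 D.h02 D.h12 e11 h h'
  have h2 := Hb_mul D.h01 D.h02 D.h12 e11 h' h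
  have h3 := Hb_mul D.h01 D.h02 D.h12 e11 h1 (Hb_inv D.h01 D.h02 D.h12 e11 h2)
  refine ⟨(a * τ⁻¹ ^ 2) * (τ⁻¹ ^ 2 * (a * τ⁻¹)) * (τ - 1) - (τ * (a * τ⁻¹ ^ 2)) * (a * τ⁻¹) * (τ - 1), ?_, ?_⟩
  · have e : (a * τ⁻¹ ^ 2) * (τ⁻¹ ^ 2 * (a * τ⁻¹)) * (τ - 1) - (τ * (a * τ⁻¹ ^ 2)) * (a * τ⁻¹) * (τ - 1) =
        a ^ 2 * τ⁻¹ ^ 5 * (τ - 1) * (1 - τ ^ 3) := by
      field_simp
    rw [e]
    exact mul_ne_zero (mul_ne_zero (mul_ne_zero (pow_ne_zero _ ha) (pow_ne_zero _ (inv_ne_zero hτ))) (sub_ne_zero.2 hτ1))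
      (sub_ne_zero.2 hτ3.symm)
  · refine Hb_T (x₁ := x₁) (ψ₁ := ψ₁) ?_ D.h02
    convert h3 using 1
    · ring
    · ring
    · ring

theorem trans_sq (D : Dat M x₀ x₁ x₂ ψ₀ ψ₁ ψ₂ τ a b) (ha : a ≠ 0) (hτ1 : τ ≠ 1) (h2 : (2 : F) = 0) :
    ∃ c : F, c ≠ 0 ∧ T M x₂ (c • ψ₀) := by
  obtain ⟨μ, h⟩ := first D
  have e11 : ψ₁ x₁ = τ - 1 := by have := D.h11; linear_combination this
  have hτ := D.hτ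
  have h1 := Hb_mul D.h01 D.h02 D.h12 e11 h h
  refine ⟨(a * τ⁻¹ ^ 2) * (a * τ⁻¹) * (τ - 1), ?_, ?_⟩
  · exact mul_ne_zero (mul_ne_zero (mul_ne_zero ha (pow_ne_zero _ (inv_ne_zero hτ))) (mul_ne_zero ha (inv_ne_zero hτ)))
      (sub_ne_zero.2 hτ1)
  · refine Hb_T (x₁ := x₁) (ψ₁ := ψ₁) ?_ D.h02
    convert h1 using 1
    · linear_combination -(a * τ⁻¹) * h2
    · linear_combination -(a * τ⁻¹ ^ 2) * h2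
    · linear_combination -μ * h2

/-- characteristic two, `τ = 1` -/
theorem trans_two {Y₀ Y₁ : GL ι F} (h2 : (2 : F) = 0) (h₀ : ∀ z, (Y₀ : Matrix ι ι F) *ᵥ z = z + ψ₀ z • x₀)
    (h₁ : ∀ z, (Y₁ : Matrix ι ι F) *ᵥ z = z + ψ₁ z • x₁) (h01 : ψ₀ x₁ = 0) (h00 : ψ₀ x₀ = 0) (h11 : ψ₁ x₁ = 0)
    (h10 : ψ₁ x₀ = a) (hA : Y₀ * Y₁⁻¹ ∈ M) : T M x₁ (a • ψ₀) := by
  have i₁ := refl_inv h₁ (τ := 1) (by rw [h11, add_zero]) one_ne_zero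
  refine ⟨by rw [LinearMap.smul_apply, h01, smul_zero], (Y₀ * Y₁⁻¹) * (Y₀ * Y₁⁻¹), M.mul_mem hA hA, fun z => ?_⟩
  have s1 : ∀ z, ((Y₀ * Y₁⁻¹ : GL ι F) : Matrix ι ι F) *ᵥ z = z + ψ₀ z • x₀ - ψ₁ z • x₁ := by
    intro z
    rw [H29.Trv.mul_apply, i₁, h₀]
    simp only [map_sub, map_smul, h01, smul_eq_mul, mul_zero, sub_zero, inv_one, one_mul]
    module
  rw [H29.Trv.mul_apply, s1, s1]
  simp only [map_sub, map_add, map_smul, h01, h00, h11, h10, smul_eq_mul, mul_zero, sub_zero, add_zero,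
    LinearMap.smul_apply]
  match_scalars
  · ring
  · linear_combination ψ₀ z * h2
  · linear_combination (-ψ₁ z - ψ₀ z * a) * h2

/-- the data from the two unipotent elements -/
def mkDat {u X : GL ι F} {x : ι → F} {ψ : (ι → F) →ₗ[F] F} (hX : ∀ z, (X : Matrix ι ι F) *ᵥ z = z + ψ z • x)
    (hu : u ∈ M) (hw : X * u * X⁻¹ ∈ M) {τ a : F} (h0 : 1 + ψ x = τ) (hτ : τ ≠ 0)
    (h1 : ψ ((u : Matrix ι ι F) *ᵥ x) = 0) (h2 : ψ ((u : Matrix ι ι F) *ᵥ ((u : Matrix ι ι F) *ᵥ x)) = 0)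
    (ha : ψ (((u⁻¹ : GL ι F) : Matrix ι ι F) *ᵥ x) = a) :
    Dat M x ((u : Matrix ι ι F) *ᵥ x) ((u : Matrix ι ι F) *ᵥ ((u : Matrix ι ι F) *ᵥ x)) ψ (ψ ∘ₗ lin u⁻¹)
      ((ψ ∘ₗ lin u⁻¹) ∘ₗ lin u⁻¹) τ a (ψ (((u⁻¹ : GL ι F) : Matrix ι ι F) *ᵥ (((u⁻¹ : GL ι F) : Matrix ι ι F) *ᵥ x))) where
  Y₀ := X
  Y₁ := u * X * u⁻¹
  Y₂ := u * (u * X * u⁻¹) * u⁻¹
  h₀ := hX
  h₁ := by
    intro z
    rw [H29.Trv.mul_apply, H29.Trv.mul_apply, hX, mulVec_add, mulVec_smul, self_inv_mulVec, LinearMap.comp_apply,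
      lin_apply]
  h₂ := by
    intro z
    rw [H29.Trv.mul_apply, H29.Trv.mul_apply, H29.Trv.mul_apply, H29.Trv.mul_apply, hX, mulVec_add, mulVec_smul,
      self_inv_mulVec, mulVec_add, mulVec_smul, self_inv_mulVec, LinearMap.comp_apply, LinearMap.comp_apply,
      lin_apply, lin_apply]
  h01 := h1
  h02 := h2
  h12 := by rw [LinearMap.comp_apply, lin_apply, inv_mulVec_self, h1]
  h00 := h0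
  h11 := by rw [LinearMap.comp_apply, lin_apply, inv_mulVec_self, h0]
  h22 := by rw [LinearMap.comp_apply, LinearMap.comp_apply, lin_apply, lin_apply, inv_mulVec_self, inv_mulVec_self, h0]
  h10 := by rw [LinearMap.comp_apply, lin_apply, ha]
  h21 := by rw [LinearMap.comp_apply, LinearMap.comp_apply, lin_apply, lin_apply, inv_mulVec_self, ha]
  h20 := rfl
  hτ := hτ
  hA := by
    have h : X * (u * X * u⁻¹)⁻¹ = (X * u * X⁻¹)⁻¹⁻¹ * u⁻¹ := by group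
    rw [h, inv_inv]
    exact M.mul_mem hw (M.inv_mem hu)
  hB := by
    have h : (u * X * u⁻¹) * (u * (u * X * u⁻¹) * u⁻¹)⁻¹ = u * ((X * u * X⁻¹) * u⁻¹) * u⁻¹ := by group
    rw [h]
    exact M.mul_mem (M.mul_mem hu (M.mul_mem hw (M.inv_mem hu))) (M.inv_mem hu)

/-- the common end -/
theorem ctr_end {u : GL ι F} {x : ι → F} {ψ : (ι → F) →ₗ[F] F} (hu : u ∈ M)
    (hall : ∀ c : F, T M ((u : Matrix ι ι F) *ᵥ ((u : Matrix ι ι F) *ᵥ x)) (c • ψ))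
    (h1 : ψ ((u : Matrix ι ι F) *ᵥ x) = 0)
    (h3 : ψ ((u : Matrix ι ι F) *ᵥ ((u : Matrix ι ι F) *ᵥ ((u : Matrix ι ι F) *ᵥ x))) ≠ 0)
    (h4 : ψ x ≠ 0 ∨ ψ x = 0 ∧ ψ (((u⁻¹ : GL ι F) : Matrix ι ι F) *ᵥ x) ≠ 0)
    (hcyc : ∀ E : Submodule F (ι → F), (∀ v ∈ E, (u : Matrix ι ι F) *ᵥ v ∈ E) →
      (u : Matrix ι ι F) *ᵥ ((u : Matrix ι ι F) *ᵥ x) ∈ E → E = ⊤)
    (hcoc : ∀ d : ι → F, (∀ E : Submodule F (ι → F), (∀ v ∈ E, (u : Matrix ι ι F) *ᵥ v ∈ E) → d ∈ E →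
      ∃ v ∈ E, ψ v ≠ 0) ∨ d = 0) :
    (u : Matrix ι ι F) *ᵥ ((u : Matrix ι ι F) *ᵥ x) ∈ ctr M := by
  set x2 := (u : Matrix ι ι F) *ᵥ ((u : Matrix ι ι F) *ᵥ x) with hx2
  have e1 : ((u⁻¹ : GL ι F) : Matrix ι ι F) *ᵥ x2 = (u : Matrix ι ι F) *ᵥ x := by rw [hx2, inv_mulVec_self]
  have hF : ψ ∈ Fn M x2 := hall
  have hF1 : ψ ∘ₗ lin u⁻¹ ∈ Fn M x2 := rule hu hF h3 hF (by rw [e1, h1])
  refine closure_lemma hu hF (by rw [e1, h1]) h3 ?_ hcyc hcoc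
  intro h
  rcases h4 with h4 | ⟨h4, h5⟩
  · apply h4
    have := h _ hF1
    rwa [LinearMap.comp_apply, lin_apply, e1, inv_mulVec_self] at this
  · have hF2 : (ψ ∘ₗ lin u⁻¹) ∘ₗ lin u⁻¹ ∈ Fn M x2 := rule hu hF h3 hF1 (by
      rw [e1, LinearMap.comp_apply, lin_apply, inv_mulVec_self, h4])
    apply h5
    have := h _ hF2
    rwa [LinearMap.comp_apply, LinearMap.comp_apply, lin_apply, lin_apply, e1, inv_mulVec_self] at this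

/-- the end in characteristic two -/
theorem ctr_end_two {u : GL ι F} {x : ι → F} {ψ : (ι → F) →ₗ[F] F} (hu : u ∈ M)
    (hall : ∀ c : F, T M ((u : Matrix ι ι F) *ᵥ x) (c • ψ))
    (h0 : ψ x = 0)
    (h2 : ψ ((u : Matrix ι ι F) *ᵥ ((u : Matrix ι ι F) *ᵥ x)) ≠ 0)
    (h4 : ψ (((u⁻¹ : GL ι F) : Matrix ι ι F) *ᵥ x) ≠ 0)
    (hcyc : ∀ E : Submodule F (ι → F), (∀ v ∈ E, (u : Matrix ι ι F) *ᵥ v ∈ E) →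
      (u : Matrix ι ι F) *ᵥ x ∈ E → E = ⊤)
    (hcoc : ∀ d : ι → F, (∀ E : Submodule F (ι → F), (∀ v ∈ E, (u : Matrix ι ι F) *ᵥ v ∈ E) → d ∈ E →
      ∃ v ∈ E, ψ v ≠ 0) ∨ d = 0) :
    (u : Matrix ι ι F) *ᵥ x ∈ ctr M := by
  have hF : ψ ∈ Fn M ((u : Matrix ι ι F) *ᵥ x) := hall
  have hF1 : ψ ∘ₗ lin u⁻¹ ∈ Fn M ((u : Matrix ι ι F) *ᵥ x) := rule hu hF h2 hF (by rw [inv_mulVec_self, h0])
  refine closure_lemma hu hF (by rw [inv_mulVec_self, h0]) h2 ?_ hcyc hcoc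
  intro h
  apply h4
  have := h _ hF1
  rwa [LinearMap.comp_apply, lin_apply, inv_mulVec_self] at this

end heis

end Cfsg.Agent.H13.RU4
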