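import Mathlib
import Cfsg.Agent.H13_RU4b

/-! `SL_n` (`n ≥ 4`) by two regular unipotent elements: the choice of the elements. -/

namespace Cfsg.Agent.H13.RU4

open Matrix H29.Trv H13.RU

section conc

variable {m : ℕ} {F : Type*} [Field F]

abbrev Sm (m : ℕ) (F : Type*) [Field F] := SLm (m + 1) F

/-- the vectors `u^j e_n` -/
def bv (m : ℕ) (F : Type*) [Field F] (j : ℕ) : Fin (m + 1 + 3) → F := fun i => ((Nat.choose j (m + 3 - i) : ℕ) : F)

/-- the vector `u⁻¹ e_n` -/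
def yv (m : ℕ) (F : Type*) [Field F] : Fin (m + 1 + 3) → F := fun i => (-1) ^ (m + 3 - (i : ℕ))

theorem u_bv (j : ℕ) : (u (m + 1) F).1 *ᵥ bv m F j = bv m F (j + 1) := by
  ext i
  by_cases hi : (i : ℕ) + 1 < m + 1 + 3
  · rw [u_apply _ i hi]
    unfold bv
    simp only
    obtain ⟨k, hk⟩ : ∃ k, m + 3 - (i : ℕ) = k + 1 := ⟨m + 3 - i - 1, by omega⟩
    have h2 : m + 3 - ((i : ℕ) + 1) = k := by omega
    rw [hk, h2, Nat.choose_succ_succ, Nat.cast_add]
    ring
  · have h : i = Fin.last (m + 1 + 2) := by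
      apply Fin.ext; rw [Fin.val_last]; omega
    rw [h, u_apply_last]
    unfold bv
    rw [Fin.val_last]
    have : m + 3 - (m + 1 + 2) = 0 := by omega
    rw [this, Nat.choose_zero_right, Nat.choose_zero_right]

theorem u_yv : (u (m + 1) F).1 *ᵥ yv m F = bv m F 0 := by
  ext i
  by_cases hi : (i : ℕ) + 1 < m + 1 + 3
  · rw [u_apply _ i hi]
    unfold bv yv
    simp only
    obtain ⟨k, hk⟩ : ∃ k, m + 3 - (i : ℕ) = k + 1 := ⟨m + 3 - i - 1, by omega⟩
    have h2 : m + 3 - ((i : ℕ) + 1) = k := by omega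
    rw [hk, h2, Nat.choose_zero_succ, Nat.cast_zero, pow_succ]
    ring
  · have h : i = Fin.last (m + 1 + 2) := by
      apply Fin.ext; rw [Fin.val_last]; omega
    rw [h, u_apply_last]
    unfold bv yv
    rw [Fin.val_last]
    have : m + 3 - (m + 1 + 2) = 0 := by omega
    rw [this, Nat.choose_zero_right, pow_zero, Nat.cast_one]

/-- the functional -/
def psi (m : ℕ) {F : Type*} [Field F] (δ γ κ ε : F) : (Fin (m + 1 + 3) → F) →ₗ[F] F :=
  δ • (pr (Fin.last (m + 1 + 2)) - pr ⟨m + 2, by omega⟩) + γ • pr ⟨m + 1, by omega⟩ + κ • pr ⟨m, by omega⟩ + ε • pr 0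

theorem psi_apply (δ γ κ ε : F) (v : Fin (m + 1 + 3) → F) : psi m δ γ κ ε v =
    δ * (v (Fin.last (m + 1 + 2)) - v ⟨m + 2, by omega⟩) + γ * v ⟨m + 1, by omega⟩ + κ * v ⟨m, by omega⟩ + ε * v 0 := rfl

theorem psi_bv (δ γ κ ε : F) (j : ℕ) : psi m δ γ κ ε (bv m F j) =
    δ * (1 - j) + γ * (Nat.choose j 2 : ℕ) + κ * (Nat.choose j 3 : ℕ) + ε * (Nat.choose j (m + 3) : ℕ) := by
  rw [psi_apply]
  unfold bv
  simp only [Fin.val_last, Fin.val_zero]
  have h1 : m + 3 - (m + 1 + 2) = 0 := by omega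
  have h2 : m + 3 - (m + 2) = 1 := by omega
  have h3 : m + 3 - (m + 1) = 2 := by omega
  have h4 : m + 3 - m = 3 := by omega
  rw [h1, h2, h3, h4, Nat.sub_zero, Nat.choose_zero_right, Nat.choose_one_right, Nat.cast_one]

theorem psi_yv (δ γ κ ε : F) : psi m δ γ κ ε (yv m F) = 2 * δ + γ - κ - ε * (-1) ^ m := by
  rw [psi_apply]
  unfold yv
  simp only [Fin.val_last, Fin.val_zero]
  have h1 : m + 3 - (m + 1 + 2) = 0 := by omega
  have h2 : m + 3 - (m + 2) = 1 := by omega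
  have h3 : m + 3 - (m + 1) = 2 := by omega
  have h4 : m + 3 - m = 3 := by omega
  rw [h1, h2, h3, h4, Nat.sub_zero, pow_add]
  ring

theorem psi_e0 (δ γ κ ε : F) : psi m δ γ κ ε (e0 (m + 1) F) = (if m = 0 then κ else 0) + ε := by
  rw [psi_apply]
  have h1 : e0 (m + 1) F (Fin.last (m + 1 + 2)) = 0 := e0_ne last_ne_zero
  have h2 : e0 (m + 1) F ⟨m + 2, by omega⟩ = 0 := e0_ne (by
    intro h; have := congrArg Fin.val h; simp at this)
  have h3 : e0 (m + 1) F ⟨m + 1, by omega⟩ = 0 := e0_ne (by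
    intro h; have := congrArg Fin.val h; simp at this)
  have h5 : e0 (m + 1) F 0 = 1 := Pi.single_eq_same _ _
  have h4 : e0 (m + 1) F ⟨m, by omega⟩ = if m = 0 then 1 else 0 := by
    by_cases hm : m = 0
    · subst hm
      rw [if_pos rfl]
      exact h5
    · rw [if_neg hm]
      exact e0_ne (by
        intro h; have := congrArg Fin.val h; simp at this; exact hm this)
  rw [h1, h2, h3, h4, h5]
  by_cases hm : m = 0
  · rw [if_pos hm, if_pos hm]; ring
  · rw [if_neg hm, if_neg hm]; ring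

/-- cocyclicity -/
theorem coc {φ : (Fin (m + 1 + 3) → F) →ₗ[F] F} (hφ : φ (e0 (m + 1) F) ≠ 0) (d : Fin (m + 1 + 3) → F) :
    (∀ E : Submodule F (Fin (m + 1 + 3) → F), (∀ v ∈ E, (u (m + 1) F).1 *ᵥ v ∈ E) → d ∈ E → ∃ v ∈ E, φ v ≠ 0) ∨ d = 0 := by
  classical
  by_cases hd : d = 0
  · exact Or.inr hd
  left
  intro E hE hdE
  -- the top nonzero coordinate
  have hex : ∃ i : Fin (m + 1 + 3), d i ≠ 0 := by
    by_contra hcon
    push Not at hcon
    exact hd (funext hcon)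
  obtain ⟨i, hi, hmax⟩ : ∃ i : Fin (m + 1 + 3), d i ≠ 0 ∧ ∀ j, i < j → d j = 0 := by
    have hne : (Finset.univ.filter (fun i : Fin (m + 1 + 3) => d i ≠ 0)).Nonempty := by
      obtain ⟨i, hi⟩ := hex
      exact ⟨i, by simp [hi]⟩
    refine ⟨_, (Finset.mem_filter.1 (Finset.max'_mem _ hne)).2, fun j hj => ?_⟩
    by_contra hcon
    have := Finset.le_max' (Finset.univ.filter (fun i : Fin (m + 1 + 3) => d i ≠ 0)) j (by simp [hcon])
    exact absurd hj (not_lt.2 this)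
  have h1 : (N (m + 1) F ^ (i : ℕ)) *ᵥ d ∈ E := X_N E hE _ d hdE
  have h2 : (N (m + 1) F ^ (i : ℕ)) *ᵥ d = d i • e0 (m + 1) F := by
    ext l
    rw [N_mv]
    by_cases hl : l = 0
    · subst hl
      rw [dif_pos (by simp only [Fin.val_zero, zero_add]; exact i.2), Pi.smul_apply]
      have h5 : e0 (m + 1) F 0 = 1 := Pi.single_eq_same _ _
      rw [h5, smul_eq_mul, mul_one]
      congr 1
      apply Fin.ext
      simp
    · rw [Pi.smul_apply, e0_ne hl, smul_zero]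
      by_cases h : (l : ℕ) + i < m + 1 + 3
      · rw [dif_pos h]
        apply hmax
        rw [Fin.lt_def]
        have : (l : ℕ) ≠ 0 := fun h => hl (Fin.ext (by simpa using h))
        simp only
        omega
      · rw [dif_neg h]
  refine ⟨_, h1, ?_⟩
  rw [h2, map_smul, smul_eq_mul]
  exact mul_ne_zero hi hφ

theorem bv_last (j : ℕ) : bv m F j (Fin.last (m + 1 + 2)) = 1 := by
  unfold bv
  rw [Fin.val_last]
  have : m + 3 - (m + 1 + 2) = 0 := by omega
  rw [this, Nat.choose_zero_right, Nat.cast_one]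

theorem cyc (j : ℕ) (E : Submodule F (Fin (m + 1 + 3) → F)) (hE : ∀ v ∈ E, (u (m + 1) F).1 *ᵥ v ∈ E)
    (h : bv m F j ∈ E) : E = ⊤ :=
  X_top E hE _ h (by rw [bv_last]; exact one_ne_zero)

/-- the homology -/
def Xm (φ : (Fin (m + 1 + 3) → F) →ₗ[F] F) : Matrix (Fin (m + 1 + 3)) (Fin (m + 1 + 3)) F :=
  1 + replicateCol Unit (bv m F 0) * replicateRow Unit (fun j => φ (Pi.single j 1))

theorem sum_single (φ : (Fin (m + 1 + 3) → F) →ₗ[F] F) (v : Fin (m + 1 + 3) → F) :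
    ∑ j, φ (Pi.single j 1) * v j = φ v := by
  have : v = ∑ i, v i • (Pi.single i 1 : Fin (m + 1 + 3) → F) := by
    ext l
    rw [Finset.sum_apply, Finset.sum_eq_single l]
    · simp
    · intro j _ hj
      rw [Pi.smul_apply, Pi.single_eq_of_ne hj.symm, smul_zero]
    · intro h; exact absurd (Finset.mem_univ _) h
  conv_rhs => rw [this]
  rw [map_sum]
  refine Finset.sum_congr rfl fun j _ => ?_
  rw [map_smul, smul_eq_mul, mul_comm]

theorem det_Xm (φ : (Fin (m + 1 + 3) → F) →ₗ[F] F) : (Xm φ).det = 1 + φ (bv m F 0) := by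
  unfold Xm
  rw [det_one_add_replicateCol_mul_replicateRow]
  congr 1
  exact sum_single φ _

theorem Xm_apply (φ : (Fin (m + 1 + 3) → F) →ₗ[F] F) (v : Fin (m + 1 + 3) → F) :
    Xm φ *ᵥ v = v + φ v • bv m F 0 := by
  unfold Xm
  rw [add_mulVec, one_mulVec]
  congr 1
  ext i
  rw [mulVec, dotProduct]
  have : ∀ j, (replicateCol Unit (bv m F 0) * replicateRow Unit (fun j => φ (Pi.single j 1)) : Matrix _ _ F) i j * v j =
      bv m F 0 i * (φ (Pi.single j 1) * v j) := by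
    intro j
    rw [Matrix.mul_apply]
    simp [mul_assoc]
  rw [Finset.sum_congr rfl (fun j _ => this j), ← Finset.mul_sum, sum_single, Pi.smul_apply, smul_eq_mul, mul_comm]

/-- the unipotent element in `GL` -/
def uG (m : ℕ) (F : Type*) [Field F] : GL (Fin (m + 1 + 3)) F := SpecialLinearGroup.toGL (u (m + 1) F)

theorem uG_coe : ((uG m F : GL (Fin (m + 1 + 3)) F) : Matrix (Fin (m + 1 + 3)) (Fin (m + 1 + 3)) F) = (u (m + 1) F).1 := rfl

theorem uG_bv (j : ℕ) : (uG m F : Matrix (Fin (m + 1 + 3)) (Fin (m + 1 + 3)) F) *ᵥ bv m F j = bv m F (j + 1) := u_bv j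

theorem uG_inv : ((uG m F)⁻¹ : GL (Fin (m + 1 + 3)) F).1 *ᵥ bv m F 0 = yv m F := by
  have h : (uG m F : Matrix (Fin (m + 1 + 3)) (Fin (m + 1 + 3)) F) *ᵥ yv m F = bv m F 0 := u_yv
  rw [← h]
  exact inv_mulVec_self _ _

/-- from a full centre to `SL` -/
theorem SL_of_ctr {M : Subgroup (GL (Fin (m + 1 + 3)) F)} (hu : uG m F ∈ M) (j : ℕ) (h : bv m F j ∈ ctr M) :
    Cfsg.Geo.specialLinear (Fin (m + 1 + 3)) F ≤ M :=
  SL_le_of_ctr (cyc j _ (fun _ hv => ctr_conj hv hu) h)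

/-- all scalars, from a generator -/
theorem all_of_gen [Finite F] {ι : Type*} [Fintype ι] [DecidableEq ι] {M : Subgroup (GL ι F)} {x : ι → F}
    {ψ : (ι → F) →ₗ[F] F} (γ : Fˣ) (hγ : ∀ a : Fˣ, a ∈ Subgroup.zpowers γ)
    (hs : ∀ l : F, T M x (l • ψ) → T M x (((γ : F) * l) • ψ)) {c : F} (hc : c ≠ 0) (h : T M x (c • ψ)) (d : F) :
    T M x (d • ψ) := by
  by_cases hd : d = 0
  · rw [hd, zero_smul]; exact T_zero_right _
  · have h2 := hγ (Units.mk0 (d / c) (div_ne_zero hd hc))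
    rw [← mem_powers_iff_mem_zpowers] at h2
    obtain ⟨k, hk⟩ := h2
    have hk' : (γ : F) ^ k = d / c := by
      have := congrArg Units.val hk
      simpa using this
    have h3 : ∀ k : ℕ, T M x (((γ : F) ^ k * c) • ψ) := by
      intro k
      induction k with
      | zero => rw [pow_zero, one_mul]; exact h
      | succ k ih =>
        have := hs _ ih
        rwa [← mul_assoc, ← pow_succ'] at this
    have h4 := h3 k
    rwa [hk', div_mul_cancel₀ _ hc] at h4

/-- all scalars, prime fields -/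
theorem all_of_prime [Finite F] {ι : Type*} [Fintype ι] [DecidableEq ι] {M : Subgroup (GL ι F)} {x : ι → F}
    {ψ : (ι → F) →ₗ[F] F} (hp : (Nat.card F).Prime) {c : F} (hc : c ≠ 0) (h : T M x (c • ψ)) (d : F) :
    T M x (d • ψ) := by
  let R : AddSubgroup F :=
    { carrier := {d | T M x (d • ψ)}
      add_mem' := by
        intro a b ha hb
        change T M x ((a + b) • ψ)
        rw [add_smul]; exact T.add_right ha hb
      zero_mem' := by
        change T M x ((0 : F) • ψ)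
        rw [zero_smul]; exact T_zero_right _
      neg_mem' := by
        intro a ha
        change T M x ((-a) • ψ)
        have e : (-a) • ψ = -(a • ψ) := by module
        rw [e]; exact T.neg ha }
  have hR : R = ⊤ := by
    haveI : Fact (Nat.card F).Prime := ⟨hp⟩
    rcases R.eq_bot_or_eq_top_of_prime_card with h1 | h1
    · exfalso
      have : c ∈ R := h
      rw [h1, AddSubgroup.mem_bot] at this
      exact hc this
    · exact h1
  have : d ∈ R := by rw [hR]; exact AddSubgroup.mem_top _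
  exact this

theorem psi_two (δ κ ε : F) : psi m δ δ κ ε (bv m F 2) = 0 := by
  rw [psi_bv]
  have h3 : Nat.choose 2 3 = 0 := rfl
  have h4 : Nat.choose 2 (m + 3) = 0 := Nat.choose_eq_zero_of_lt (by omega)
  have h5 : Nat.choose 2 2 = 1 := rfl
  rw [h3, h4, h5]
  push_cast
  ring

theorem psi_one (δ γ κ ε : F) : psi m δ γ κ ε (bv m F 1) = 0 := by
  rw [psi_bv]
  have h3 : Nat.choose 1 3 = 0 := rfl
  have h4 : Nat.choose 1 (m + 3) = 0 := Nat.choose_eq_zero_of_lt (by omega)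
  have h5 : Nat.choose 1 2 = 0 := rfl
  rw [h3, h4, h5]
  push_cast
  ring

theorem psi_zero (δ γ κ ε : F) : psi m δ γ κ ε (bv m F 0) = δ := by
  rw [psi_bv]
  have h3 : Nat.choose 0 3 = 0 := rfl
  have h4 : Nat.choose 0 (m + 3) = 0 := Nat.choose_eq_zero_of_lt (by omega)
  have h5 : Nat.choose 0 2 = 0 := rfl
  rw [h3, h4, h5]
  push_cast
  ring

theorem psi_three (δ κ ε : F) : psi m δ δ κ ε (bv m F 3) = δ + κ + (if m = 0 then ε else 0) := by
  rw [psi_bv]
  have h3 : Nat.choose 3 3 = 1 := rfl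
  have h5 : Nat.choose 3 2 = 3 := rfl
  by_cases hm : m = 0
  · subst hm
    rw [if_pos rfl, h3, h5]
    push_cast
    ring
  · have h4 : Nat.choose 3 (m + 3) = 0 := Nat.choose_eq_zero_of_lt (by omega)
    rw [h3, h4, h5, if_neg hm]
    push_cast
    ring

/-- the nonprime case -/
theorem caseQ [Finite F] (hnp : ¬ (Nat.card F).Prime) : ∃ X : GL (Fin (m + 1 + 3)) F,
    ∀ M : Subgroup (GL (Fin (m + 1 + 3)) F), uG m F ∈ M → X * uG m F * X⁻¹ ∈ M →
      Cfsg.Geo.specialLinear (Fin (m + 1 + 3)) F ≤ M := by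
  classical
  have := Fintype.ofFinite F
  have hq1 : 1 < Nat.card F := Finite.one_lt_card
  have hq4 : 4 ≤ Nat.card F := by
    by_contra hcon
    have : Nat.card F = 2 ∨ Nat.card F = 3 := by omega
    rcases this with h | h
    · rw [h] at hnp; exact hnp Nat.prime_two
    · rw [h] at hnp; exact hnp Nat.prime_three
  obtain ⟨τ, hτ⟩ := IsCyclic.exists_generator (α := Fˣ)
  have hord : orderOf τ = Nat.card F - 1 := by
    rw [orderOf_eq_card_of_forall_mem_zpowers hτ, Nat.card_units]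
  have hτ0 : (τ : F) ≠ 0 := τ.ne_zero
  have hτ1 : (τ : F) ≠ 1 := by
    intro h
    have : τ = 1 := Units.ext h
    rw [this, orderOf_one] at hord
    omega
  set δ : F := τ - 1 with hδ
  have hδ0 : δ ≠ 0 := sub_ne_zero.2 hτ1
  obtain ⟨ε, hε0, hε1, hε2⟩ : ∃ ε : F, ε ≠ 0 ∧ ε ≠ -δ ∧ ε ≠ 3 * δ * (-1) ^ m := by
    have hcard : ({0, -δ, 3 * δ * (-1) ^ m} : Finset F).card < (Finset.univ : Finset F).card := by
      have h1 : ({0, -δ, 3 * δ * (-1) ^ m} : Finset F).card ≤ 3 := Finset.card_le_three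
      rw [Finset.card_univ, ← Nat.card_eq_fintype_card]
      omega
    obtain ⟨ε, -, hε⟩ := Finset.exists_mem_notMem_of_card_lt_card hcard
    simp only [Finset.mem_insert, Finset.mem_singleton, not_or] at hε
    exact ⟨ε, hε.1, hε.2.1, hε.2.2⟩
  set φ := psi m δ δ 0 ε with hφ
  have f0 : φ (bv m F 0) = δ := psi_zero _ _ _ _
  have f1 : φ (bv m F 1) = 0 := psi_one _ _ _ _
  have f2 : φ (bv m F 2) = 0 := psi_two _ _ _
  have f3 : φ (bv m F 3) ≠ 0 := by
    rw [hφ, psi_three]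
    by_cases hm : m = 0
    · rw [if_pos hm, add_zero]
      intro h
      apply hε1
      linear_combination h
    · rw [if_neg hm, add_zero, add_zero]; exact hδ0
  have hsq : ((-1 : F) ^ m) * (-1) ^ m = 1 := by
    rw [← mul_pow]; simp
  have fm : φ (yv m F) ≠ 0 := by
    rw [hφ, psi_yv]
    intro h
    apply hε2
    linear_combination (-(-1) ^ m) * h - ε * hsq
  have fe : φ (e0 (m + 1) F) ≠ 0 := by
    rw [hφ, psi_e0]
    by_cases hm : m = 0
    · rw [if_pos hm, zero_add]; exact hε0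
    · rw [if_neg hm, zero_add]; exact hε0
  have hdet : (Xm φ).det ≠ 0 := by
    rw [det_Xm, f0, hδ]
    rw [add_sub_cancel]; exact hτ0
  refine ⟨Matrix.GeneralLinearGroup.mkOfDetNeZero (Xm φ) hdet, fun M hu hw => ?_⟩
  set X := Matrix.GeneralLinearGroup.mkOfDetNeZero (Xm φ) hdet with hX
  have hXa : ∀ z, (X : Matrix (Fin (m + 1 + 3)) (Fin (m + 1 + 3)) F) *ᵥ z = z + φ z • bv m F 0 := fun z => Xm_apply φ z
  have D := mkDat (τ := (τ : F)) (a := φ (yv m F)) hXa hu hw (by rw [f0, hδ, add_sub_cancel]) hτ0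
    (by rw [uG_bv, zero_add, f1]) (by rw [uG_bv, uG_bv]; exact f2) (by rw [uG_inv])
  have hc : ∃ c : F, c ≠ 0 ∧ T M ((uG m F : Matrix (Fin (m + 1 + 3)) (Fin (m + 1 + 3)) F) *ᵥ
      ((uG m F : Matrix (Fin (m + 1 + 3)) (Fin (m + 1 + 3)) F) *ᵥ bv m F 0)) (c • φ) := by
    by_cases h2 : (2 : F) = 0
    · exact trans_sq D fm hτ1 h2
    · refine trans_comm D fm hτ1 ?_
      intro h3
      have h4 : τ ^ 3 = 1 := by
        apply Units.ext
        rw [Units.val_pow_eq_pow_val, h3, Units.val_one]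
      have h5 := Nat.le_of_dvd (by norm_num) (orderOf_dvd_of_pow_eq_one h4)
      rw [hord] at h5
      have h6 : Nat.card F = 4 := by omega
      have h7 : ((Nat.card F : ℕ) : F) = 0 := by
        rw [Nat.card_eq_fintype_card]; exact Nat.cast_card_eq_zero F
      rw [h6] at h7
      apply h2
      have h8 : (2 : F) * 2 = 0 := by
        have : ((4 : ℕ) : F) = 2 * 2 := by norm_num
        rw [← this]; exact h7
      exact mul_self_eq_zero.1 h8
  obtain ⟨c, hc0, hcT⟩ := hc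
  have hall := all_of_gen τ hτ (fun l hl => torus D hl) hc0 hcT
  have hend := ctr_end hu hall (by rw [uG_bv, zero_add, f1])
    (by rw [uG_bv, uG_bv, uG_bv]; exact f3) (Or.inl (by rw [f0]; exact hδ0))
    (fun E hE hx => cyc 2 E hE (by rwa [uG_bv, uG_bv] at hx)) (fun d => coc fe d)
  rw [uG_bv, uG_bv] at hend
  exact SL_of_ctr hu 2 hend

/-- the homology in `SL` -/
def XS (φ : (Fin (m + 1 + 3) → F) →ₗ[F] F) (h : φ (bv m F 0) = 0) : Sm m F :=
  ⟨Xm φ, by rw [det_Xm, h, add_zero]⟩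

/-- the prime case, first kind -/
theorem caseP [Finite F] (hp : (Nat.card F).Prime) (h2 : (2 : F) ≠ 0 ∨ m = 0) : ∃ g : Sm m F,
    ∀ M : Subgroup (GL (Fin (m + 1 + 3)) F), uG m F ∈ M →
      SpecialLinearGroup.toGL g * uG m F * (SpecialLinearGroup.toGL g)⁻¹ ∈ M →
      Cfsg.Geo.specialLinear (Fin (m + 1 + 3)) F ≤ M := by
  set ε : F := if m = 0 then 0 else (-1) ^ m with hε
  set φ := psi m 0 0 1 ε with hφ
  have f0 : φ (bv m F 0) = 0 := psi_zero _ _ _ _
  have f1 : φ (bv m F 1) = 0 := psi_one _ _ _ _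
  have f2 : φ (bv m F 2) = 0 := psi_two _ _ _
  have f3 : φ (bv m F 3) ≠ 0 := by
    rw [hφ, psi_three]
    by_cases hm : m = 0
    · rw [hε, if_pos hm, if_pos hm, zero_add, add_zero]; exact one_ne_zero
    · rw [if_neg hm, zero_add, add_zero]; exact one_ne_zero
  have hsq : ((-1 : F) ^ m) * (-1) ^ m = 1 := by
    rw [← mul_pow]; simp
  have fm : φ (yv m F) ≠ 0 := by
    rw [hφ, psi_yv]
    intro h
    by_cases hm : m = 0
    · rw [hε, if_pos hm, zero_mul, sub_zero, mul_zero, zero_add, zero_sub] at h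
      exact one_ne_zero (neg_eq_zero.1 h)
    · rw [hε, if_neg hm, hsq] at h
      rcases h2 with h2 | h2
      · apply h2; linear_combination -h
      · exact hm h2
  have fe : φ (e0 (m + 1) F) ≠ 0 := by
    rw [hφ, psi_e0]
    by_cases hm : m = 0
    · rw [hε, if_pos hm, if_pos hm, add_zero]; exact one_ne_zero
    · rw [hε, if_neg hm, if_neg hm, zero_add]
      exact pow_ne_zero _ (neg_ne_zero.2 one_ne_zero)
  refine ⟨XS φ f0, fun M hu hw => ?_⟩
  set X := SpecialLinearGroup.toGL (XS φ f0) with hX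
  have hXa : ∀ z, (X : Matrix (Fin (m + 1 + 3)) (Fin (m + 1 + 3)) F) *ᵥ z = z + φ z • bv m F 0 := fun z => Xm_apply φ z
  have D := mkDat (τ := (1 : F)) (a := φ (yv m F)) hXa hu hw (by rw [f0, add_zero]) one_ne_zero
    (by rw [uG_bv, zero_add, f1]) (by rw [uG_bv, uG_bv]; exact f2) (by rw [uG_inv])
  have hall := all_of_prime hp (pow_ne_zero 2 fm) (trans_one D)
  have hend := ctr_end hu hall (by rw [uG_bv, zero_add, f1])
    (by rw [uG_bv, uG_bv, uG_bv]; exact f3) (Or.inr ⟨f0, by rw [uG_inv]; exact fm⟩)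
    (fun E hE hx => cyc 2 E hE (by rwa [uG_bv, uG_bv] at hx)) (fun d => coc fe d)
  rw [uG_bv, uG_bv] at hend
  exact SL_of_ctr hu 2 hend

/-- the prime case, second kind -/
theorem caseB [Finite F] (hp : (Nat.card F).Prime) (h2 : (2 : F) = 0) (hm : m ≠ 0) : ∃ g : Sm m F,
    ∀ M : Subgroup (GL (Fin (m + 1 + 3)) F), uG m F ∈ M →
      SpecialLinearGroup.toGL g * uG m F * (SpecialLinearGroup.toGL g)⁻¹ ∈ M →
      Cfsg.Geo.specialLinear (Fin (m + 1 + 3)) F ≤ M := by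
  set φ := psi m (0 : F) 1 1 1 with hφ
  have f0 : φ (bv m F 0) = 0 := psi_zero _ _ _ _
  have f1 : φ (bv m F 1) = 0 := psi_one _ _ _ _
  have f2 : φ (bv m F 2) ≠ 0 := by
    rw [hφ, psi_bv]
    have h3 : Nat.choose 2 3 = 0 := rfl
    have h4 : Nat.choose 2 (m + 3) = 0 := Nat.choose_eq_zero_of_lt (by omega)
    have h5 : Nat.choose 2 2 = 1 := rfl
    rw [h3, h4, h5]
    simp
  have fm : φ (yv m F) ≠ 0 := by
    rw [hφ, psi_yv]
    have : 2 * (0 : F) + 1 - 1 - 1 * (-1) ^ m = -(-1) ^ m := by ring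
    rw [this]
    exact neg_ne_zero.2 (pow_ne_zero _ (neg_ne_zero.2 one_ne_zero))
  have fe : φ (e0 (m + 1) F) ≠ 0 := by
    rw [hφ, psi_e0, if_neg hm, zero_add]; exact one_ne_zero
  refine ⟨XS φ f0, fun M hu hw => ?_⟩
  set X := SpecialLinearGroup.toGL (XS φ f0) with hX
  have hXa : ∀ z, (X : Matrix (Fin (m + 1 + 3)) (Fin (m + 1 + 3)) F) *ᵥ z = z + φ z • bv m F 0 := fun z => Xm_apply φ z
  have hA : X * (uG m F * X * (uG m F)⁻¹)⁻¹ ∈ M := by
    have h : X * (uG m F * X * (uG m F)⁻¹)⁻¹ = (X * uG m F * X⁻¹)⁻¹⁻¹ * (uG m F)⁻¹ := by group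
    rw [h, inv_inv]
    exact M.mul_mem hw (M.inv_mem hu)
  have hT := trans_two (ψ₀ := φ) (ψ₁ := φ ∘ₗ lin (uG m F)⁻¹) (x₀ := bv m F 0)
    (x₁ := (uG m F : Matrix (Fin (m + 1 + 3)) (Fin (m + 1 + 3)) F) *ᵥ bv m F 0) (a := φ (yv m F)) (Y₁ := uG m F * X * (uG m F)⁻¹)
    h2 hXa (by
      intro z
      rw [H29.Trv.mul_apply, H29.Trv.mul_apply, hXa, mulVec_add, mulVec_smul, self_inv_mulVec, LinearMap.comp_apply,
        lin_apply]) (by rw [uG_bv, zero_add, f1]) f0 (by rw [LinearMap.comp_apply, lin_apply, inv_mulVec_self, f0])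
      (by rw [LinearMap.comp_apply, lin_apply, uG_inv]) hA
  have hall := all_of_prime hp fm hT
  have hend := ctr_end_two hu hall f0
    (by rw [uG_bv, uG_bv]; exact f2) (by rw [uG_inv]; exact fm)
    (fun E hE hx => cyc 1 E hE (by rwa [uG_bv, zero_add] at hx)) (fun d => coc fe d)
  rw [uG_bv, zero_add] at hend
  exact SL_of_ctr hu 1 hend

theorem prime_case [Finite F] (hp : (Nat.card F).Prime) : ∃ g : Sm m F,
    Subgroup.closure ({u (m + 1) F, g * u (m + 1) F * g⁻¹} : Set (Sm m F)) = ⊤ := by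
  have key : ∃ g : Sm m F, ∀ M : Subgroup (GL (Fin (m + 1 + 3)) F), uG m F ∈ M →
      SpecialLinearGroup.toGL g * uG m F * (SpecialLinearGroup.toGL g)⁻¹ ∈ M →
      Cfsg.Geo.specialLinear (Fin (m + 1 + 3)) F ≤ M := by
    by_cases h2 : (2 : F) = 0
    · by_cases hm : m = 0
      · exact caseP hp (Or.inr hm)
      · exact caseB hp h2 hm
    · exact caseP hp (Or.inl h2)
  obtain ⟨g, hg⟩ := key
  refine ⟨g, ?_⟩
  set H := Subgroup.closure ({u (m + 1) F, g * u (m + 1) F * g⁻¹} : Set (Sm m F)) with hH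
  have hu : u (m + 1) F ∈ H := Subgroup.subset_closure (by simp)
  have hw : g * u (m + 1) F * g⁻¹ ∈ H := Subgroup.subset_closure (by simp)
  refine top_of_SL H (hg _ (Subgroup.mem_map_of_mem _ hu) ?_)
  have := Subgroup.mem_map_of_mem (SpecialLinearGroup.toGL (n := Fin (m + 1 + 3)) (R := F)) hw
  rw [map_mul, map_mul, map_inv] at this
  exact this

/-- regularity is inherited by conjugates in `GL` -/
theorem reg_conj {n : ℕ} {A B P Q : Matrix (Fin n) (Fin n) F} (hPQ : P * Q = 1) (hQP : Q * P = 1) (hB : B = P * A * Q)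
    (h1 : IsNilpotent (A - 1)) (h2 : (A - 1) ^ (n - 1) ≠ 0) : IsNilpotent (B - 1) ∧ (B - 1) ^ (n - 1) ≠ 0 := by
  have e1 : B - 1 = P * (A - 1) * Q := by
    rw [hB, mul_sub, mul_one, sub_mul, hPQ]
  have e2 : ∀ k, (B - 1) ^ k = P * (A - 1) ^ k * Q := by
    intro k
    induction k with
    | zero => rw [pow_zero, pow_zero, mul_one, hPQ]
    | succ k ih =>
      rw [pow_succ, ih, e1, pow_succ]
      have : P * (A - 1) ^ k * Q * (P * (A - 1) * Q) = P * (A - 1) ^ k * (Q * P) * (A - 1) * Q := by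
        simp only [mul_assoc]
      rw [this, hQP, mul_one]
      simp only [mul_assoc]
  constructor
  · obtain ⟨k, hk⟩ := h1
    exact ⟨k, by rw [e2, hk, mul_zero, zero_mul]⟩
  · intro h
    apply h2
    rw [e2] at h
    have : (A - 1) ^ (n - 1) = Q * (P * (A - 1) ^ (n - 1) * Q) * P := by
      have e3 : Q * (P * (A - 1) ^ (n - 1) * Q) * P = (Q * P) * (A - 1) ^ (n - 1) * (Q * P) := by
        simp only [mul_assoc]
      rw [e3, hQP, one_mul, mul_one]
    rw [this, h, mul_zero, zero_mul]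

theorem gen_case [Finite F] : ∃ v : Sm m F, (IsNilpotent (v.1 - 1) ∧ (v.1 - 1) ^ (m + 1 + 3 - 1) ≠ 0) ∧
    Subgroup.closure ({u (m + 1) F, v} : Set (Sm m F)) = ⊤ := by
  by_cases hp : (Nat.card F).Prime
  · obtain ⟨g, hg⟩ := prime_case (m := m) hp
    refine ⟨g * u (m + 1) F * g⁻¹, ?_, hg⟩
    refine reg_conj (P := g.1) (Q := (g⁻¹).1) (A := (u (m + 1) F).1) ?_ ?_ rfl u_nilp u_reg
    · exact congrArg Subtype.val (mul_inv_cancel g)
    · exact congrArg Subtype.val (inv_mul_cancel g)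
  · obtain ⟨X, hX⟩ := caseQ (m := m) hp
    have hdet : (X.1 * (u (m + 1) F).1 * (X⁻¹).1).det = 1 := by
      have h1 : X.1.det * (X⁻¹).1.det = 1 := by
        rw [← det_mul, ← Units.val_mul, mul_inv_cancel, Units.val_one, det_one]
      rw [det_mul, det_mul, (u (m + 1) F).2, mul_one, h1]
    refine ⟨⟨X.1 * (u (m + 1) F).1 * (X⁻¹).1, hdet⟩, ?_, ?_⟩
    · refine reg_conj (P := X.1) (Q := (X⁻¹).1) (A := (u (m + 1) F).1) ?_ ?_ rfl u_nilp u_reg
      · rw [← Units.val_mul, mul_inv_cancel, Units.val_one]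
      · rw [← Units.val_mul, inv_mul_cancel, Units.val_one]
    · set v : Sm m F := ⟨X.1 * (u (m + 1) F).1 * (X⁻¹).1, hdet⟩ with hv
      set H := Subgroup.closure ({u (m + 1) F, v} : Set (Sm m F)) with hH
      have hu : u (m + 1) F ∈ H := Subgroup.subset_closure (by simp)
      have hw : v ∈ H := Subgroup.subset_closure (by simp)
      refine top_of_SL H (hX _ (Subgroup.mem_map_of_mem _ hu) ?_)
      refine ⟨v, hw, ?_⟩
      apply Units.ext
      rfl

end conc

theorem final {F : Type*} [Field F] [Fintype F] (n : ℕ) (hn : 4 ≤ n) :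
    (∃ u v : Matrix.SpecialLinearGroup (Fin n) F, (IsNilpotent ((u : Matrix (Fin n) (Fin n) F) - 1) ∧ ((u : Matrix (Fin n) (Fin n) F) - 1) ^ (n - 1) ≠ 0) ∧ (IsNilpotent ((v : Matrix (Fin n) (Fin n) F) - 1) ∧ ((v : Matrix (Fin n) (Fin n) F) - 1) ^ (n - 1) ≠ 0) ∧
      Subgroup.closure ({u, v} : Set (Matrix.SpecialLinearGroup (Fin n) F)) = ⊤) ∧
    ((Fintype.card F).Prime → ∃ u g : Matrix.SpecialLinearGroup (Fin n) F, (IsNilpotent ((u : Matrix (Fin n) (Fin n) F) - 1) ∧ ((u : Matrix (Fin n) (Fin n) F) - 1) ^ (n - 1) ≠ 0) ∧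
      Subgroup.closure ({u, g * u * g⁻¹} : Set (Matrix.SpecialLinearGroup (Fin n) F)) = ⊤) := by
  obtain ⟨m, rfl⟩ : ∃ m, n = m + 1 + 3 := ⟨n - 4, by omega⟩
  constructor
  · obtain ⟨v, h1, h2⟩ := gen_case (m := m) (F := F)
    exact ⟨u (m + 1) F, v, ⟨u_nilp, u_reg⟩, h1, h2⟩
  · intro hp
    obtain ⟨g, hg⟩ := prime_case (m := m) (F := F) (by rw [Nat.card_eq_fintype_card]; exact hp)
    exact ⟨u (m + 1) F, g, ⟨u_nilp, u_reg⟩, hg⟩

end Cfsg.Agent.H13.RU4
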