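import Cfsg.Agent.H13_WC3
import Cfsg.Agent.H1_Hall

/-!
Averaging: the fixed points of `X` on an abelian normal `p`-subgroup `V` are a direct factor of the fixed
points of a Sylow `p`-subgroup.
-/

set_option autoImplicit false

namespace Cfsg.Agent.H13.Retr

universe u

open Subgroup Cfsg.Agent.H13.Syl Cfsg.Agent.H13.Chief Cfsg.Agent.H13.CF Cfsg.Agent.H13.Bad
open scoped commutatorElement

theorem retract {X : Type u} [Group X] [Finite X] {p : ℕ} [Fact p.Prime] {S V : Subgroup X}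
    (hS : IsSylIn p S ⊤) (hVp : IsPGroup p V) (hV : V.Normal) (hab : V ≤ centralizer (V : Set X)) :
    ∃ K : Subgroup X, K ≤ V ⊓ centralizer (S : Set X) ∧ (V ⊓ center X) ⊓ K = ⊥ ∧
      (V ⊓ center X) ⊔ K = V ⊓ centralizer (S : Set X) := by
  classical
  have hVab : ∀ v w : V, v * w = w * v := by
    intro v w
    exact Subtype.ext (Subgroup.mem_centralizer_iff.1 (hab w.2) v v.2)
  let iE : CommGroup V := { (inferInstance : Group V) with mul_comm := hVab }
  let φ : X →* MulAut V := MulAut.conjNormal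
  have hφ : ∀ h (e : V), ((φ h e : V) : X) = h * e * h⁻¹ := fun h e => MulAut.conjNormal_apply h e
  let _ := S.fintypeQuotientOfFiniteIndex
  have hfix : ∀ e : V, (e : X) ∈ centralizer (S : Set X) ↔ ∀ m ∈ S, φ m e = e := by
    intro e
    rw [Subgroup.mem_centralizer_iff]
    constructor
    · intro h m hm
      apply Subtype.ext
      rw [hφ, h m hm]; group
    · intro h m hm
      have h1 := congrArg Subtype.val (h m hm)
      rw [hφ] at h1
      nth_rewrite 2 [← h1]; group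
  have hcen : ∀ e : V, (e : X) ∈ center X ↔ ∀ h : X, φ h e = e := by
    intro e
    rw [Subgroup.mem_center_iff]
    constructor
    · intro h m
      apply Subtype.ext
      rw [hφ, h m]; group
    · intro h m
      have h1 := congrArg Subtype.val (h m)
      rw [hφ] at h1
      nth_rewrite 2 [← h1]; group
  have hfun : ∀ e : V, (∀ m ∈ S, φ m e = e) → ∀ h : X,
      φ ((QuotientGroup.mk h : X ⧸ S).out) e = φ h e := by
    intro e he h
    obtain ⟨m, hm⟩ := QuotientGroup.mk_out_eq_mul S h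
    rw [hm, map_mul, MulAut.mul_apply, he m m.2]
  let N : V →* V :=
    { toFun := fun e => ∏ q : X ⧸ S, φ q.out e
      map_one' := by simp
      map_mul' := fun a b => by simp [Finset.prod_mul_distrib] }
  have hNdef : ∀ e, N e = ∏ q : X ⧸ S, φ q.out e := fun e => rfl
  have hNinv : ∀ e : V, (∀ m ∈ S, φ m e = e) → ∀ h, φ h (N e) = N e := by
    intro e he h
    rw [hNdef, map_prod]
    refine Eq.trans ?_ (Equiv.prod_comp (MulAction.toPerm h : Equiv.Perm (X ⧸ S)) (fun q => φ q.out e))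
    apply Finset.prod_congr rfl
    intro q _
    obtain ⟨g, rfl⟩ := QuotientGroup.mk_surjective q
    have h1 : (MulAction.toPerm h : Equiv.Perm (X ⧸ S)) (QuotientGroup.mk g) = QuotientGroup.mk (h * g) := rfl
    rw [h1, hfun e he, hfun e he, map_mul, MulAut.mul_apply]
  set n := Fintype.card (X ⧸ S) with hn
  have hNfix : ∀ e : V, (∀ h : X, φ h e = e) → N e = e ^ n := by
    intro e he
    rw [hNdef, Finset.prod_congr rfl (fun q _ => he q.out), Finset.prod_const, Finset.card_univ]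
  have hncop : n.Coprime p := by
    have h1 : ¬ p ∣ S.index := fun hd => hS.2.2 (by
      rw [Subgroup.relIndex_top_right]; exact hd)
    have h2 : S.index = n := by
      rw [Subgroup.index, Nat.card_eq_fintype_card]
    rw [← h2]
    exact ((Nat.Prime.coprime_iff_not_dvd Fact.out).2 h1).symm
  obtain ⟨k, hk⟩ := (IsPGroup.iff_card (p := p) (G := V)).1 hVp
  have hcop2 : n.Coprime (Nat.card V) := by
    rw [hk]; exact hncop.pow_right k
  obtain ⟨m, hm⟩ : ∃ m : ℤ, ∀ v : V, (v ^ n) ^ m = v := by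
    refine ⟨Nat.gcdA n (Nat.card V), fun v => ?_⟩
    have h1 := Nat.gcd_eq_gcd_ab n (Nat.card V)
    rw [hcop2.gcd_eq_one] at h1
    have h2 : v ^ ((1 : ℕ) : ℤ) = v := by simp
    rw [← zpow_natCast, ← zpow_mul]
    nth_rewrite 2 [← h2]
    rw [h1, zpow_add, zpow_mul v (Nat.card V : ℤ), zpow_natCast v (Nat.card V), pow_card_eq_one', one_zpow, mul_one]
  have hNzpow : ∀ (v : V) (j : ℤ), N (v ^ j) = (N v) ^ j := fun v j => map_zpow N v j
  refine ⟨(V ⊓ centralizer (S : Set X)) ⊓ (N.ker.map V.subtype), inf_le_left, ?_, ?_⟩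
  · rw [eq_bot_iff]
    intro x hx
    obtain ⟨hx1, hx2⟩ := Subgroup.mem_inf.1 hx
    obtain ⟨hxV, hxc⟩ := Subgroup.mem_inf.1 hx1
    obtain ⟨v, hv, hvx⟩ := (Subgroup.mem_inf.1 hx2).2
    have hv1 : (v : X) = x := hvx
    have h1 : N v = 1 := hv
    have h2 : v ^ n = 1 := by
      rw [← hNfix v ((hcen v).1 (by rw [hv1]; exact hxc)), h1]
    have h3 := hm v
    rw [h2, one_zpow] at h3
    rw [Subgroup.mem_bot, ← hv1, ← h3]; rfl
  · apply le_antisymm
    · refine sup_le (inf_le_inf le_rfl ?_) inf_le_left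
      exact Subgroup.center_le_centralizer _
    · intro x hx
      obtain ⟨hxV, hxC⟩ := Subgroup.mem_inf.1 hx
      let v : V := ⟨x, hxV⟩
      have hvS := (hfix v).1 hxC
      let w : V := (N v) ^ m
      have hw : ∀ h, φ h w = w := by
        intro h
        show φ h ((N v) ^ m) = (N v) ^ m
        rw [map_zpow, hNinv v hvS]
      have hNw : N w = N v := by
        rw [hNfix w hw]
        show ((N v) ^ m) ^ n = N v
        rw [← zpow_natCast, ← zpow_mul, mul_comm m, zpow_mul, zpow_natCast]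
        exact hm (N v)
      have h1 : (w : X) ∈ V ⊓ center X := Subgroup.mem_inf.2 ⟨w.2, (hcen w).2 hw⟩
      have h2 : ((w⁻¹ * v : V) : X) ∈ (V ⊓ centralizer (S : Set X)) ⊓ (N.ker.map V.subtype) := by
        refine Subgroup.mem_inf.2 ⟨Subgroup.mem_inf.2 ⟨(w⁻¹ * v).2, ?_⟩, ⟨w⁻¹ * v, ?_, rfl⟩⟩
        · rw [hfix]
          intro s hs
          rw [map_mul, map_inv, hw, hvS s hs]
        · show N (w⁻¹ * v) = 1
          rw [map_mul, map_inv, hNw, inv_mul_cancel]
      have h3 : x = (w : X) * ((w⁻¹ * v : V) : X) := by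
        rw [← Subgroup.coe_mul, mul_inv_cancel_left]
      rw [h3]
      exact Subgroup.mul_mem_sup h1 h2

open Cfsg.Agent.H13.K Cfsg.Agent.H13.WC in
theorem loc_lower {G : Type u} [Group G] [Finite G] {p : ℕ} [Fact p.Prime] (hp : p ≠ 2) :
    ∀ (H T : Subgroup G), T ≤ H → IsPGroup p T → ¬ p ∣ T.relIndex H →
      ¬ H ≤ normalizer ((inducedFunctor kInfLower T : Subgroup G) : Set G) → ∃ g : G, g ∈ T ∧ g ∉ pCoreOf p H ∧
      ∀ U V : Subgroup H, IsChiefFactor U V →
        U.map H.subtype ≤ pCoreOf p H ⊓ centralizer ((pCoreOf p H : Subgroup G) : Set G) →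
        iterCommutator (U.map H.subtype) (zpowers g) (p - 1) ≤ V.map H.subtype := by
  intro K T' h1 h2 h3 h4
  rw [induced_lower] at h4
  obtain ⟨g, hg1, hg2, hg3⟩ := bad_rel ⟨h1, h2, h3⟩ (Or.inl h4)
  refine ⟨g, hg1, hg2, fun U V hUV hU => ?_⟩
  obtain ⟨_, hUn, hVn, _⟩ := id hUV
  have hp2 : 2 ≤ p - 1 := by
    have := (Fact.out : p.Prime).two_le
    omega
  obtain ⟨k, hk⟩ := Nat.exists_eq_add_of_le hp2
  rw [hk, Nat.add_comm]
  have h5 : iterCommutator (U.map K.subtype) (zpowers g) 2 = ⊥ := by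
    rw [eq_bot_iff, ← hg3]
    exact commutator_mono (commutator_mono hU le_rfl) le_rfl
  have h6 : ∀ k, iterCommutator (U.map K.subtype) (zpowers g) (k + 2) = ⊥ := by
    intro k
    induction k with
    | zero => exact h5
    | succ k ih =>
      show ⁅iterCommutator (U.map K.subtype) (zpowers g) (k + 2), zpowers g⁆ = ⊥
      rw [ih, Subgroup.commutator_bot_left]
  rw [h6]; exact bot_le

open Cfsg.Agent.H13.K Cfsg.Agent.H13.WC in
theorem wc_factor_odd {G : Type u} [Group G] [Finite G] {p : ℕ} [Fact p.Prime] {S : Subgroup G}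
    (hS : IsSylIn p S ⊤) (hp : p ≠ 2) :
    ∃ W K : Subgroup G, (∀ x : G, x ∈ W ↔ (x ∈ S ∧ ∀ g : G, g * x * g⁻¹ ∈ S → g * x * g⁻¹ = x)) ∧
      K ≤ (S ⊓ centralizer (S : Set G)) ∧ W ⊓ K = ⊥ ∧ W ⊔ K = (S ⊓ centralizer (S : Set G)) := by
  have hW := Sec.induced_isConjugacyFunctor (X := G) (isCharPFunctor_lower p)
  set W₀ := KLow S with hW₀
  have hind : inducedFunctor kInfLower S = W₀ := induced_lower S
  set N := normalizer (W₀ : Set G) with hN
  have hSN : S ≤ N := Subgroup.le_normalizer.trans (normalizer_le_KLow S)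
  have hZW : S ⊓ centralizer (S : Set G) ≤ W₀ := center_le_KLow S
  have hWS : W₀ ≤ S := KLow_le S
  have hS' : IsSylIn p (S.subgroupOf N) ⊤ := isSylIn_subgroupOf (hS.mono hSN le_top)
  set V := W₀ ⊓ centralizer (W₀ : Set G) with hV
  have hVN : V ≤ N := inf_le_left.trans Subgroup.le_normalizer
  have hV'n : (V.subgroupOf N).Normal := by
    constructor
    intro v hv n
    have h1 : (n : G) ∈ normalizer (V : Set G) := by
      rw [mem_normalizer_iff_cj, hV, cj_inf, cj_centralizer, cj_eq_of_mem_normalizer n.2]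
    exact (Subgroup.mem_normalizer_iff.1 h1 _).1 hv
  have hV'p : IsPGroup p (V.subgroupOf N) := (hS.2.1.to_le (inf_le_left.trans hWS)).comap_subtype
  have hVm : (V.subgroupOf N).map N.subtype = V := Subgroup.map_subgroupOf_eq_of_le hVN
  have hSm : (S.subgroupOf N).map N.subtype = S := Subgroup.map_subgroupOf_eq_of_le hSN
  have hV'ab : V.subgroupOf N ≤ centralizer ((V.subgroupOf N : Subgroup N) : Set N) := by
    intro v hv
    rw [mem_centralizer_subtype, hVm]
    exact Subgroup.centralizer_le (inf_le_left : V ≤ W₀) (Subgroup.mem_inf.1 hv).2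
  obtain ⟨K, hK1, hK2, hK3⟩ := retract hS' hV'p hV'n hV'ab
  have hfixS : (V.subgroupOf N ⊓ centralizer ((S.subgroupOf N : Subgroup N) : Set N)).map N.subtype =
      S ⊓ centralizer (S : Set G) := by
    ext x
    constructor
    · rintro ⟨y, hy, rfl⟩
      obtain ⟨hy1, hy2⟩ := Subgroup.mem_inf.1 hy
      rw [mem_centralizer_subtype, hSm] at hy2
      exact Subgroup.mem_inf.2 ⟨hWS (Subgroup.mem_inf.1 (show (y : G) ∈ V from hy1)).1, hy2⟩
    · intro hx
      obtain ⟨hx1, hx2⟩ := Subgroup.mem_inf.1 hx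
      refine ⟨⟨x, hSN hx1⟩, Subgroup.mem_inf.2 ⟨?_, ?_⟩, rfl⟩
      · exact Subgroup.mem_inf.2 ⟨hZW hx, Subgroup.centralizer_le hWS hx2⟩
      · rw [mem_centralizer_subtype, hSm]; exact hx2
  have hmem : ∀ x : G, x ∈ (V.subgroupOf N ⊓ center N).map N.subtype ↔
      (x ∈ S ∧ ∀ g : G, g * x * g⁻¹ ∈ S → g * x * g⁻¹ = x) := by
    intro x
    constructor
    · rintro ⟨y, hy, rfl⟩
      obtain ⟨hy1, hy2⟩ := Subgroup.mem_inf.1 hy
      have hyV : (y : G) ∈ V := hy1
      have hyS : (y : G) ∈ S := hWS (Subgroup.mem_inf.1 hyV).1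
      refine ⟨hyS, fun g hg => ?_⟩
      have h1 := (weak_elements_lower hp (⊤ : Subgroup G)).2
      have hcN : N ≤ centralizer {(y : G)} := by
        intro n hn
        rw [Subgroup.mem_centralizer_singleton_iff]
        exact congrArg Subtype.val (Subgroup.mem_center_iff.1 hy2 ⟨n, hn⟩)
      have hyZ : (y : G) ∈ S ⊓ centralizer (S : Set G) := by
        refine Subgroup.mem_inf.2 ⟨hyS, ?_⟩
        rw [Subgroup.mem_centralizer_iff]
        intro s hs
        exact (Subgroup.mem_centralizer_singleton_iff.1 (hcN (hSN hs)))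
      refine wc_elements hW (fun P _ => center_le_lower P) ?_ hS hyZ ?_ (Subgroup.mem_top g) hg
      · exact loc_lower hp
      · rw [top_inf_eq, hind]; exact hcN
    · rintro ⟨hxS, hx⟩
      have hxZ : x ∈ S ⊓ centralizer (S : Set G) := by
        refine Subgroup.mem_inf.2 ⟨hxS, ?_⟩
        rw [Subgroup.mem_centralizer_iff]
        intro s hs
        have h1 := hx s (S.mul_mem (S.mul_mem hs hxS) (S.inv_mem hs))
        calc s * x = (s * x * s⁻¹) * s := by group
          _ = x * s := by rw [h1]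
      refine ⟨⟨x, hSN hxS⟩, Subgroup.mem_inf.2 ⟨?_, ?_⟩, rfl⟩
      · exact Subgroup.mem_inf.2 ⟨hZW hxZ, Subgroup.centralizer_le hWS (Subgroup.mem_inf.1 hxZ).2⟩
      · rw [Subgroup.mem_center_iff]
        rintro ⟨n, hn⟩
        apply Subtype.ext
        have h1 : n * x * n⁻¹ ∈ W₀ := (Subgroup.mem_normalizer_iff.1 hn x).1 (hZW hxZ)
        have h2 := hx n (hWS h1)
        show n * x = x * n
        calc n * x = (n * x * n⁻¹) * n := by group
          _ = x * n := by rw [h2]
  refine ⟨_, K.map N.subtype, hmem, ?_, ?_, ?_⟩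
  · rw [← hfixS]; exact Subgroup.map_mono hK1
  · rw [← Subgroup.map_inf _ _ _ N.subtype_injective, hK2, Subgroup.map_bot]
  · rw [← Subgroup.map_sup, hK3, hfixS]

theorem wc_factor_solvable {G : Type u} [Group G] [Finite G] {p : ℕ} [Fact p.Prime] {S : Subgroup G}
    (hS : IsSylIn p S ⊤) [Group.IsSolvable G] :
    ∃ W K : Subgroup G, (∀ x : G, x ∈ W ↔ (x ∈ S ∧ ∀ g : G, g * x * g⁻¹ ∈ S → g * x * g⁻¹ = x)) ∧
      K ≤ (S ⊓ centralizer (S : Set G)) ∧ W ⊓ K = ⊥ ∧ W ⊔ K = (S ⊓ centralizer (S : Set G)) := by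
  set R := pPrimeCore p G with hR
  have hRn : R.Normal := inferInstance
  have hRcop : (Nat.card R).Coprime p := H11.Cores.pPrimeCore_coprime p
  set π := QuotientGroup.mk' R with hπ
  have hsurj : Function.Surjective π := QuotientGroup.mk'_surjective R
  have hker : ∀ x, π x = 1 ↔ x ∈ R := fun x => by rw [hπ, QuotientGroup.mk'_apply, QuotientGroup.eq_one_iff]
  have hSR : ∀ x ∈ S, x ∈ R → x = 1 := by
    intro x hx hxR
    have h1 : orderOf x ∣ Nat.card R := by
      have := orderOf_dvd_natCard (⟨x, hxR⟩ : R)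
      rwa [Subgroup.orderOf_mk] at this
    exact eq_one_of_pow_coprime hS.2.1 hx (Nat.Coprime.coprime_dvd_left h1 hRcop) (pow_orderOf_eq_one x)
  have hsol : Group.IsSolvable (G ⧸ R) := inferInstance
  have hQ : pPrimeCore p (G ⧸ R) = ⊥ := H11.Cores.pPrimeCore_quotient p
  have hC := H1.Hall.centralizer_pCore_le (G := G ⧸ R) p hQ
  set P := pCore p (G ⧸ R) with hP
  have hPp : IsPGroup p P := H11.Cores.pCore_isPGroup p
  set S' := S.map π with hS'
  have hS's : IsSylIn p S' ⊤ := by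
    exact Sec.isSylIn_map_surj π hsurj hS
  have hPS' : P ≤ S' := Sec.pCore_le_of_isSylIn hS's
  set V := P ⊓ centralizer (P : Set (G ⧸ R)) with hV
  have hVn : V.Normal := inferInstance
  have hVab : V ≤ centralizer (V : Set (G ⧸ R)) :=
    inf_le_right.trans (Subgroup.centralizer_le (inf_le_left : V ≤ P))
  obtain ⟨K, hK1, hK2, hK3⟩ := retract hS's (hPp.to_le inf_le_left) hVn hVab
  have hKV : K ≤ V := hK1.trans inf_le_left
  -- lifting equalities from the quotient
  have hlift : ∀ x ∈ S, ∀ y ∈ S, π x = π y → x = y := by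
    intro x hx y hy h
    have h1 : π (x * y⁻¹) = 1 := by rw [map_mul, h, map_inv, mul_inv_cancel]
    exact mul_inv_eq_one.1 (hSR _ (S.mul_mem hx (S.inv_mem hy)) ((hker _).1 h1))
  have hcS : ∀ x ∈ S, π x ∈ centralizer (S' : Set (G ⧸ R)) → x ∈ S ⊓ centralizer (S : Set G) := by
    intro x hx h
    refine Subgroup.mem_inf.2 ⟨hx, ?_⟩
    rw [Subgroup.mem_centralizer_iff]
    intro s hs
    apply hlift _ (S.mul_mem hs hx) _ (S.mul_mem hx hs)
    rw [map_mul, map_mul]
    exact Subgroup.mem_centralizer_iff.1 h _ ⟨s, hs, rfl⟩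
  have hZV : ∀ x ∈ S ⊓ centralizer (S : Set G), π x ∈ V ⊓ centralizer (S' : Set (G ⧸ R)) := by
    intro x hx
    have h1 : π x ∈ centralizer (S' : Set (G ⧸ R)) := by
      rw [Subgroup.mem_centralizer_iff]
      rintro _ ⟨s, hs, rfl⟩
      rw [← map_mul, ← map_mul, Subgroup.mem_centralizer_iff.1 (Subgroup.mem_inf.1 hx).2 s hs]
    have h2 := Subgroup.centralizer_le hPS' h1
    exact Subgroup.mem_inf.2 ⟨Subgroup.mem_inf.2 ⟨hC h2, h2⟩, h1⟩
  refine ⟨S ⊓ (V ⊓ center (G ⧸ R)).comap π, S ⊓ K.comap π, ?_, ?_, ?_, ?_⟩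
  · intro x
    constructor
    · intro hx
      obtain ⟨hxS, hx2⟩ := Subgroup.mem_inf.1 hx
      refine ⟨hxS, fun g hg => hlift _ hg _ hxS ?_⟩
      have h1 := Subgroup.mem_center_iff.1 (Subgroup.mem_inf.1 (Subgroup.mem_comap.1 hx2)).2 (π g)
      rw [map_mul, map_mul, map_inv, h1]; group
    · rintro ⟨hxS, hx⟩
      have hxZ : x ∈ S ⊓ centralizer (S : Set G) := by
        refine Subgroup.mem_inf.2 ⟨hxS, ?_⟩
        rw [Subgroup.mem_centralizer_iff]
        intro s hs
        have h1 := hx s (S.mul_mem (S.mul_mem hs hxS) (S.inv_mem hs))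
        calc s * x = (s * x * s⁻¹) * s := by group
          _ = x * s := by rw [h1]
      have hxV := (Subgroup.mem_inf.1 (hZV x hxZ)).1
      refine Subgroup.mem_inf.2 ⟨hxS, Subgroup.mem_comap.2 (Subgroup.mem_inf.2 ⟨hxV, ?_⟩)⟩
      rw [Subgroup.mem_center_iff]
      intro q
      obtain ⟨g, rfl⟩ := hsurj q
      -- the conjugate lies in S' so some conjugate by an element of R lies in S
      have h1 : π (g * x * g⁻¹) ∈ S' := by
        rw [map_mul, map_mul, map_inv]
        exact hPS' (Subgroup.mem_inf.1 (hVn.conj_mem _ hxV (π g))).1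
      have h2 : g * x * g⁻¹ ∈ R ⊔ S := by
        obtain ⟨s, hs, hsx⟩ := h1
        have h3 : (g * x * g⁻¹) * s⁻¹ ∈ R := by
          rw [← hker, map_mul, ← hsx, map_inv, mul_inv_cancel]
        have h4 : g * x * g⁻¹ = ((g * x * g⁻¹) * s⁻¹) * s := by group
        rw [h4]
        exact Subgroup.mul_mem_sup h3 hs
      have hSyl : IsSylIn p S (R ⊔ S) := hS.mono le_sup_right le_top
      have hzp : IsPGroup p (zpowers (g * x * g⁻¹)) := by
        rw [← Norm.cj_zpowers]
        exact isPGroup_cj (hS.2.1.to_le (by rw [zpowers_le]; exact hxS))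
      obtain ⟨m, hm, hmS⟩ := hSyl.exists_conj_le hzp (by rw [zpowers_le]; exact h2)
      rw [Norm.cj_zpowers, zpowers_le] at hmS
      -- write m = s * r
      have hm' : m ∈ S ⊔ R := by rw [sup_comm]; exact hm
      obtain ⟨s, hs, r, hr, rfl⟩ := Subgroup.mem_sup_of_normal_right.1 hm'
      have h5 : r * (g * x * g⁻¹) * r⁻¹ ∈ S := by
        have h6 := S.mul_mem (S.mul_mem (S.inv_mem hs) hmS) hs
        have h7 : s⁻¹ * (s * r * (g * x * g⁻¹) * (s * r)⁻¹) * s = r * (g * x * g⁻¹) * r⁻¹ := by group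
        rwa [h7] at h6
      have h6 : (r * g) * x * (r * g)⁻¹ ∈ S := by
        have h7 : (r * g) * x * (r * g)⁻¹ = r * (g * x * g⁻¹) * r⁻¹ := by group
        rw [h7]; exact h5
      have h7 := congrArg π (hx (r * g) h6)
      have hr1 : π r = 1 := (hker r).2 hr
      rw [map_mul, map_mul, map_inv, map_mul, hr1, one_mul] at h7
      calc π g * π x = (π g * π x * (π g)⁻¹) * π g := by group
        _ = π x * π g := by rw [h7]
  · intro x hx
    obtain ⟨hxS, hx2⟩ := Subgroup.mem_inf.1 hx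
    exact hcS x hxS (Subgroup.mem_inf.1 (hK1 (Subgroup.mem_comap.1 hx2))).2
  · rw [eq_bot_iff]
    intro x hx
    obtain ⟨hx1, hx2⟩ := Subgroup.mem_inf.1 hx
    have h1 : π x ∈ (V ⊓ center (G ⧸ R)) ⊓ K :=
      Subgroup.mem_inf.2 ⟨(Subgroup.mem_inf.1 hx1).2, (Subgroup.mem_inf.1 hx2).2⟩
    rw [hK2, Subgroup.mem_bot, hker] at h1
    rw [Subgroup.mem_bot]
    exact hSR x (Subgroup.mem_inf.1 hx1).1 h1
  · apply le_antisymm
    · refine sup_le ?_ ?_
      · intro x hx
        obtain ⟨hxS, hx2⟩ := Subgroup.mem_inf.1 hx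
        exact hcS x hxS (Subgroup.center_le_centralizer _ (Subgroup.mem_inf.1 (Subgroup.mem_comap.1 hx2)).2)
      · intro x hx
        obtain ⟨hxS, hx2⟩ := Subgroup.mem_inf.1 hx
        exact hcS x hxS (Subgroup.mem_inf.1 (hK1 (Subgroup.mem_comap.1 hx2))).2
    · intro y hy
      have h1 := hZV y hy
      rw [← hK3] at h1
      have hVcn : (V ⊓ center (G ⧸ R)).Normal := inferInstance
      rw [sup_comm] at h1
      obtain ⟨k, hk, w, hw, hkw⟩ := Subgroup.mem_sup_of_normal_right.1 h1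
      obtain ⟨w₀, hw₀, rfl⟩ := hPS' (Subgroup.mem_inf.1 (Subgroup.mem_inf.1 hw).1).1
      obtain ⟨k₀, hk₀, rfl⟩ := hPS' (Subgroup.mem_inf.1 (hKV hk)).1
      have h2 : y = k₀ * w₀ := by
        apply hlift _ (Subgroup.mem_inf.1 hy).1 _ (S.mul_mem hk₀ hw₀)
        rw [map_mul]; exact hkw.symm
      rw [h2, sup_comm]
      exact Subgroup.mul_mem_sup (Subgroup.mem_inf.2 ⟨hk₀, hk⟩) (Subgroup.mem_inf.2 ⟨hw₀, hw⟩)

end Cfsg.Agent.H13.Retr
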