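import Mathlib
import Cfsg.Prelude.Def_Solvable
import Cfsg.Prelude.Def_OddOrderLocal
import Cfsg.Agent.H18_PStab
import Cfsg.Agent.H5_Exc4
import Cfsg.Agent.H1_Hall
import Cfsg.Agent.H13_AG3
import Cfsg.Agent.H13_Bend
import Cfsg.Agent.H12_BG8b
set_option autoImplicit false
set_option linter.all false

namespace Cfsg.Agent.H13.SCNH

universe u

open Cfsg Subgroup Cfsg.Agent.H11.Cores
open scoped commutatorElement

theorem commute_of_cop {G : Type*} [Group G] {a x : G} (hcop : (orderOf a).Coprime (orderOf ⁅a, x⁆))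
    (hc : Commute a ⁅a, x⁆) : Commute a x := by
  have key : ∀ n : ℕ, a ^ n * x * (a ^ n)⁻¹ = ⁅a, x⁆ ^ n * x := by
    intro n
    induction n with
    | zero => simp
    | succ n ih =>
      have h1 : a * x * a⁻¹ = ⁅a, x⁆ * x := by rw [commutatorElement_def]; group
      have h2 : a * ⁅a, x⁆ ^ n * a⁻¹ = ⁅a, x⁆ ^ n := by
        have := (hc.pow_right n).eq
        rw [this]; group
      calc a ^ (n + 1) * x * (a ^ (n + 1))⁻¹ = a * (a ^ n * x * (a ^ n)⁻¹) * a⁻¹ := by
            rw [pow_succ']; group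
        _ = a * (⁅a, x⁆ ^ n * x) * a⁻¹ := by rw [ih]
        _ = (a * ⁅a, x⁆ ^ n * a⁻¹) * (a * x * a⁻¹) := by group
        _ = ⁅a, x⁆ ^ n * (⁅a, x⁆ * x) := by rw [h1, h2]
        _ = ⁅a, x⁆ ^ (n + 1) * x := by rw [pow_succ]; group
  have h1 := key (orderOf a)
  rw [pow_orderOf_eq_one] at h1
  have h2 : ⁅a, x⁆ ^ orderOf a = 1 := by
    have : (1 : G) * x * 1⁻¹ = x := by group
    rw [this] at h1
    have h3 : ⁅a, x⁆ ^ orderOf a * x = 1 * x := by rw [one_mul]; exact h1.symm
    exact mul_right_cancel h3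
  have h3 : orderOf ⁅a, x⁆ ∣ orderOf a := orderOf_dvd_of_pow_eq_one h2
  have h5 : orderOf ⁅a, x⁆ = 1 := Nat.eq_one_of_dvd_coprimes hcop h3 dvd_rfl
  rw [orderOf_eq_one_iff] at h5
  exact commutatorElement_eq_one_iff_commute.mp h5

theorem not_involves {G : Type u} [Group G] [Finite G] [Group.IsSolvable G] {q : ℕ} [hq : Fact q.Prime] (h5 : 5 ≤ q) :
    ¬ Involves (Cfsg.Agent.H5.SL2.S (ZMod q)) G := by
  intro h
  rw [Cfsg.Agent.H13.Sec.involves_iff] at h
  obtain ⟨K, f, hf⟩ := h
  haveI : Group.IsSolvable (Cfsg.Agent.H5.SL2.S (ZMod q)) := Group.isSolvable_of_surjective hf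
  haveI : NeZero q := ⟨hq.out.ne_zero⟩
  have h1 : commutator (Matrix.SpecialLinearGroup (Fin 2) (ZMod q)) = ⊤ :=
    Cfsg.Agent.H5.Exc.perfect_SL2 (by rw [ZMod.card]; omega)
  have hnt : Nontrivial (Matrix.SpecialLinearGroup (Fin 2) (ZMod q)) := by
    refine ⟨⟨⟨!![1, 1; 0, 1], by simp⟩, 1, ?_⟩⟩
    intro h
    have := congrArg (fun M : Matrix.SpecialLinearGroup (Fin 2) (ZMod q) => (M : Matrix (Fin 2) (Fin 2) (ZMod q)) 0 1) h
    simp at this
  have := Group.IsSolvable.commutator_lt_top_of_nontrivial (Matrix.SpecialLinearGroup (Fin 2) (ZMod q))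
  exact this.ne h1

theorem fitting_eq {G : Type u} [Group G] [Finite G] {q : ℕ} (hq : q.Prime) :
    fittingSubgroup G ≤ pCore q G ⊔ (fittingSubgroup G ⊓ pPrimeCore q G) := by
  haveI : Fact q.Prime := ⟨hq⟩
  conv_lhs => rw [Cfsg.Agent.H11.Cores.fittingSubgroup_eq_iSup_pCore]
  apply iSup_le
  rintro ⟨r, hr⟩
  haveI : Fact r.Prime := ⟨hr⟩
  by_cases h : r = q
  · subst h; exact le_sup_left
  · refine le_trans ?_ le_sup_right
    refine le_inf (Cfsg.Agent.H11.Cores.pCore_le_fittingSubgroup r) ?_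
    apply le_pPrimeCore
    obtain ⟨n, hn⟩ := IsPGroup.iff_card.1 (pCore_isPGroup (G := G) r)
    rw [hn]
    exact Nat.Coprime.pow_left _ ((Nat.coprime_primes hr hq).2 h)

theorem quad_mem_fitting {G : Type u} [Group G] [Finite G] [Group.IsSolvable G] {q : ℕ} [hq : Fact q.Prime] (h5 : 5 ≤ q)
    {x : G} {k : ℕ} (hx : x ^ q ^ k = 1)
    (h : ⁅⁅fittingSubgroup G, zpowers x⁆, zpowers x⁆ = ⊥) : x ∈ fittingSubgroup G := by
  have hFn : (fittingSubgroup G).Normal := Cfsg.Agent.H1.Nilp.fitting_normal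
  have hqn : (pCore q G).Normal := inferInstance
  have hpn : (pPrimeCore q G).Normal := Cfsg.Agent.H1.Nilp.pPrimeCore_normal (G := G) q
  set W : Subgroup G := fittingSubgroup G ⊓ pPrimeCore q G with hW
  have hWn : W.Normal := inferInstance
  have hWcop : (Nat.card W).Coprime q :=
    Nat.Coprime.coprime_dvd_left (Subgroup.card_dvd_of_le inf_le_right) (pPrimeCore_coprime q)
  have hxo : orderOf x ∣ q ^ k := orderOf_dvd_of_pow_eq_one hx
  -- x centralizes W
  have hxW : x ∈ centralizer (W : Set G) := by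
    rw [mem_centralizer_iff]
    intro y hy
    have hz : ⁅x, y⁆ ∈ W := by
      rw [commutatorElement_def]
      exact mul_mem (hWn.conj_mem y hy x) (inv_mem hy)
    have hcop : (orderOf x).Coprime (orderOf ⁅x, y⁆) := by
      have h1 : orderOf ⁅x, y⁆ ∣ Nat.card W := by
        have := orderOf_dvd_natCard (⟨_, hz⟩ : W)
        rwa [Subgroup.orderOf_mk] at this
      exact Nat.Coprime.coprime_dvd_left hxo (Nat.Coprime.pow_left k (Nat.Coprime.coprime_dvd_left h1 hWcop).symm.symm.symm)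
    have hc : Commute x ⁅x, y⁆ := by
      have h1 : ⁅y, x⁆ ∈ ⁅fittingSubgroup G, zpowers x⁆ :=
        commutator_mem_commutator hy.1 (mem_zpowers x)
      have h2 : ⁅x, y⁆ ∈ ⁅fittingSubgroup G, zpowers x⁆ := by
        rw [← commutatorElement_inv]; exact inv_mem h1
      have h3 := commutator_mem_commutator h2 (mem_zpowers x)
      rw [h, mem_bot] at h3
      exact (commutatorElement_eq_one_iff_commute.1 h3).symm
    exact (commute_of_cop hcop hc).symm.eq
  -- stability
  have hst : IsNormalizerPStable q G := Cfsg.Agent.H18.PStab.stable_of_sl (by omega) (not_involves h5)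
  have htop : normalizer (pCore q G : Set G) = ⊤ := Subgroup.normalizer_eq_top (pCore q G)
  have hquad : ⁅⁅pCore q G, zpowers x⁆, zpowers x⁆ = ⊥ := by
    rw [eq_bot_iff, ← h]
    exact commutator_mono (commutator_mono (Cfsg.Agent.H11.Cores.pCore_le_fittingSubgroup q) le_rfl) le_rfl
  obtain ⟨K, hxK, _, hKN, hKp⟩ := Cfsg.Agent.H13.KT.stable_iff.1 hst (pCore q G) (pCore_isPGroup q) x
    (by rw [htop]; trivial) hquad
  have hKn : K.Normal := by
    rw [htop] at hKN
    exact Subgroup.normalizer_eq_top_iff.1 (top_le_iff.1 hKN)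
  set Y : Subgroup G := K ⊓ centralizer (W : Set G) with hY
  have hYn : Y.Normal := inferInstance
  -- Y is nilpotent
  have hcomm : ∀ a ∈ pCore q G, ∀ w ∈ W, Commute a w := by
    intro a ha w hw
    have h1 : pCore q G ⊓ W = ⊥ := Cfsg.Agent.H13.Bend.inf_bot (pCore_isPGroup q) hWcop
    have h2 := Subgroup.commute_of_normal_of_disjoint (pCore q G) W hqn hWn (disjoint_iff.2 h1) a w ha hw
    exact h2
  have hpow : ∀ y ∈ Y, ∃ n : ℕ, y ^ q ^ n ∈ W := by
    rintro y ⟨hy1, hy2⟩
    obtain ⟨n, hn⟩ := hKp y hy1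
    have h1 : y ^ q ^ n ∈ centralizer (fittingSubgroup G : Set G) := by
      have h2 : fittingSubgroup G ≤ centralizer ({y ^ q ^ n} : Set G) := by
        refine (fitting_eq hq.out).trans (sup_le ?_ ?_)
        · intro a ha
          rw [mem_centralizer_singleton_iff]
          exact mem_centralizer_iff.1 hn a ha
        · intro a ha
          rw [mem_centralizer_singleton_iff]
          exact mem_centralizer_iff.1 (pow_mem hy2 (q ^ n)) a ha
      rw [mem_centralizer_iff]
      intro a ha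
      exact mem_centralizer_singleton_iff.1 (h2 ha)
    have h2 := Cfsg.Agent.H1.Hall.centralizer_fitting_le h1
    have h3 := fitting_eq hq.out h2
    rw [Subgroup.mem_sup_of_normal_left] at h3
    obtain ⟨a, ha, w, hw, haw⟩ := h3
    obtain ⟨m, hm⟩ := (pCore_isPGroup (G := G) q) ⟨a, ha⟩
    have hm' : a ^ q ^ m = 1 := congrArg Subtype.val hm
    refine ⟨n + m, ?_⟩
    rw [pow_add, pow_mul, ← haw, (hcomm a ha w hw).mul_pow, hm', one_mul]
    exact pow_mem hw _
  have hnil : Group.IsNilpotent Y := by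
    have hcen : W.subgroupOf Y ≤ center Y := by
      intro w hw
      rw [mem_center_iff]
      intro y
      apply Subtype.ext
      exact (mem_centralizer_iff.1 y.2.2 w hw).symm
    have hq2 : IsPGroup q (Y ⧸ W.subgroupOf Y) := by
      intro g
      induction g using QuotientGroup.induction_on with | H y => ?_
      obtain ⟨n, hn⟩ := hpow y y.2
      refine ⟨n, ?_⟩
      rw [← QuotientGroup.mk_pow, QuotientGroup.eq_one_iff, mem_subgroupOf]
      exact hn
    haveI : Group.IsNilpotent (Y ⧸ W.subgroupOf Y) := hq2.isNilpotent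
    exact Subgroup.isNilpotent_of_ker_le_center (QuotientGroup.mk' (W.subgroupOf Y)) (by rw [QuotientGroup.ker_mk']; exact hcen)
  have hle : Y ≤ fittingSubgroup G := le_sSup (show Y ∈ {N : Subgroup G | N.Normal ∧ Group.IsNilpotent N} from ⟨hYn, hnil⟩)
  exact hle ⟨hxK, hxW⟩

/-- the key statement when `O_{π'}(G) = 1`. -/
theorem key {G : Type u} [Group G] [Finite G] [Group.IsSolvable G] {π : Set ℕ} (h2 : 2 ∉ π) (h3 : 3 ∉ π)
    (hcore : ∀ N : Subgroup G, N.Normal → (∀ p : ℕ, p.Prime → p ∣ Nat.card N → p ∉ π) → N = ⊥)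
    (H : Subgroup G) (hH : IsPiHall π H) (A : Subgroup G) (hA : IsSCN ((fittingSubgroup H).map H.subtype) A)
    {q : ℕ} (hq : q.Prime) (hqπ : q ∈ π) {x : G} {k : ℕ} (hx : x ^ q ^ k = 1) (hxA : x ∈ centralizer (A : Set G)) :
    x ∈ A := by
  haveI : Fact q.Prime := ⟨hq⟩
  have h5 : 5 ≤ q := by
    have h2' : q ≠ 2 := by rintro rfl; exact h2 hqπ
    have h3' : q ≠ 3 := by rintro rfl; exact h3 hqπ
    have h4' : q ≠ 4 := by rintro rfl; norm_num at hq
    have := hq.two_le
    omega
  have hFn : (fittingSubgroup G).Normal := Cfsg.Agent.H1.Nilp.fitting_normal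
  have hFnil : Group.IsNilpotent (fittingSubgroup G) := Cfsg.Agent.H1.Nilp.fitting_nilpotent
  -- F(G) is a π-group
  have hFpi : ∀ r : ℕ, r.Prime → r ∣ Nat.card (fittingSubgroup G) → r ∈ π := by
    intro r hr hdvd
    haveI : Fact r.Prime := ⟨hr⟩
    by_contra hrπ
    have h1 : pCore r G = ⊥ := by
      apply hcore _ inferInstance
      intro p hp hpd
      obtain ⟨n, hn⟩ := IsPGroup.iff_card.1 (pCore_isPGroup (G := G) r)
      rw [hn] at hpd
      have := (Nat.prime_dvd_prime_iff_eq hp hr).1 (hp.dvd_of_dvd_pow hpd)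
      rw [this]; exact hrπ
    have h4 := fitting_eq (G := G) hr
    rw [h1, bot_sup_eq] at h4
    have h5 : Nat.card (fittingSubgroup G) ∣ Nat.card (pPrimeCore r G) := Subgroup.card_dvd_of_le (h4.trans inf_le_right)
    have h6 := pPrimeCore_coprime (G := G) r
    have h7 : r ∣ Nat.gcd (Nat.card (pPrimeCore r G)) r := Nat.dvd_gcd (hdvd.trans h5) dvd_rfl
    rw [h6] at h7
    exact hr.one_lt.ne' (Nat.dvd_one.1 h7)
  -- F(G) ≤ H
  have hFH : fittingSubgroup G ≤ H := by
    have h1 : (H ⊔ fittingSubgroup G) = H := by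
      by_contra hne
      have h4 : H.relIndex (H ⊔ fittingSubgroup G) ≠ 1 := by
        rw [Ne, Subgroup.relIndex_eq_one]
        intro h
        exact hne (le_antisymm h le_sup_left)
      obtain ⟨r, hr, hrd⟩ := Nat.exists_prime_and_dvd h4
      have h5 : H.relIndex (H ⊔ fittingSubgroup G) ∣ Nat.card (fittingSubgroup G) := by
        have e1 := Cfsg.Agent.H1.Basic.card_sup_mul_card_inf (H := H) (K := fittingSubgroup G) (by
          rw [Subgroup.normalizer_eq_top]; exact le_top)
        have e2 := Cfsg.Agent.H1.Basic.relIndex_mul_card (K := H) (L := H ⊔ fittingSubgroup G) le_sup_left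
        rw [← e2, mul_comm (H.relIndex _), mul_assoc] at e1
        have e3 := Nat.eq_of_mul_eq_mul_left Nat.card_pos e1
        rw [← e3]; exact Dvd.intro _ rfl
      have h6 : r ∈ π := hFpi r hr (hrd.trans h5)
      exact hH.2 r hr h6 (hrd.trans (Subgroup.relIndex_dvd_index_of_le le_sup_left))
    rw [← h1]; exact le_sup_right
  have hF12 : fittingSubgroup G ≤ (fittingSubgroup H).map H.subtype := by
    have h1 : (fittingSubgroup G).subgroupOf H ≤ fittingSubgroup H := by
      refine le_sSup (show (fittingSubgroup G).subgroupOf H ∈ {N : Subgroup H | N.Normal ∧ Group.IsNilpotent N} from ⟨inferInstance, ?_⟩)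
      exact Group.nilpotent_of_mulEquiv (Subgroup.subgroupOfEquivOfLe hFH).symm
    intro y hy
    exact ⟨⟨y, hFH hy⟩, h1 hy, rfl⟩
  obtain ⟨hA1, hA2, hA3⟩ := hA
  have hAA : A ≤ centralizer (A : Set G) := by
    intro a ha
    rw [← hA3] at ha
    exact ha.2
  have hX : zpowers x ≤ centralizer (A : Set G) := by rw [zpowers_le]; exact hxA
  have hstep : ⁅fittingSubgroup G, zpowers x⁆ ≤ A := by
    have h1 : ⁅fittingSubgroup G, zpowers x⁆ ≤ fittingSubgroup G := commutator_le_left _ _
    have h4 : ⁅⁅fittingSubgroup G, zpowers x⁆, A⁆ = ⊥ := by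
      apply Subgroup.commutator_commutator_eq_bot_of_rotate
      · have : ⁅zpowers x, A⁆ = ⊥ := Subgroup.commutator_eq_bot_iff_le_centralizer.2 hX
        rw [this, commutator_bot_left]
      · have : ⁅A, fittingSubgroup G⁆ ≤ A := by
          rw [Subgroup.commutator_le]
          intro a ha f hf
          rw [commutatorElement_def]
          have hn := (mem_normalizer_iff.1 (hA2 (hF12 hf)) a⁻¹).1 (inv_mem ha)
          have e : a * f * a⁻¹ * f⁻¹ = a * (f * a⁻¹ * f⁻¹) := by group
          rw [e]; exact mul_mem ha hn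
        rw [eq_bot_iff]
        refine (commutator_mono this hX).trans ?_
        rw [le_bot_iff, Subgroup.commutator_comm, Subgroup.commutator_eq_bot_iff_le_centralizer]
    rw [← hA3]
    refine le_inf (h1.trans hF12) ?_
    exact Subgroup.commutator_eq_bot_iff_le_centralizer.1 h4
  have hquad : ⁅⁅fittingSubgroup G, zpowers x⁆, zpowers x⁆ = ⊥ := by
    rw [eq_bot_iff]
    refine (commutator_mono hstep hX).trans ?_
    rw [le_bot_iff, Subgroup.commutator_comm, Subgroup.commutator_eq_bot_iff_le_centralizer]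
  have hxF := quad_mem_fitting h5 hx hquad
  rw [← hA3]
  exact ⟨hF12 hxF, hxA⟩


theorem scn_map {S Q : Type u} [Group S] [Finite S] [Group Q] [Finite Q] (f : S →* Q) (H : Subgroup S)
    (hinj : ∀ h ∈ H, f h = 1 → h = 1) (A : Subgroup S) (hA : IsSCN ((fittingSubgroup H).map H.subtype) A) :
    IsSCN ((fittingSubgroup ↥(H.map f)).map (H.map f).subtype) (A.map f) := by
  -- the isomorphism
  let g : H →* H.map f := (f.domRestrict H).codRestrict (H.map f) (fun h => ⟨h, h.2, rfl⟩)
  have hg1 : Function.Injective g := by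
    rw [injective_iff_map_eq_one]
    intro h hh
    apply Subtype.ext
    exact hinj h h.2 (congrArg Subtype.val hh)
  have hg2 : Function.Surjective g := by
    rintro ⟨_, x, hx, rfl⟩
    exact ⟨⟨x, hx⟩, rfl⟩
  let e : H ≃* H.map f := MulEquiv.ofBijective g ⟨hg1, hg2⟩
  have hF : (fittingSubgroup ↥(H.map f)).map (H.map f).subtype = ((fittingSubgroup H).map H.subtype).map f := by
    rw [← Cfsg.Agent.H12.Core.map_equiv_fitting e, Subgroup.map_map, Subgroup.map_map]
    rfl
  obtain ⟨h1, h2, h3⟩ := hA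
  have hFH : (fittingSubgroup H).map H.subtype ≤ H := map_subtype_le _
  rw [hF]
  refine ⟨map_mono h1, ?_, ?_⟩
  · rintro _ ⟨x, hx, rfl⟩
    have hx' := h2 hx
    rw [mem_normalizer_iff]
    intro y
    constructor
    · rintro ⟨a, ha, rfl⟩
      exact ⟨x * a * x⁻¹, (mem_normalizer_iff.1 hx' a).1 ha, by simp⟩
    · rintro ⟨a, ha, hay⟩
      refine ⟨x⁻¹ * a * x, ?_, ?_⟩
      · have := (mem_normalizer_iff.1 (inv_mem hx') a).1 ha
        rwa [inv_inv] at this
      · rw [map_mul, map_mul, map_inv, hay]; group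
  · apply le_antisymm
    · rintro _ ⟨⟨x, hx, rfl⟩, hx2⟩
      have hxA : x ∈ centralizer (A : Set S) := by
        rw [mem_centralizer_iff]
        intro a ha
        have h4 := mem_centralizer_iff.1 hx2 (f a) ⟨a, ha, rfl⟩
        have h5 : f (a * x * a⁻¹ * x⁻¹) = 1 := by
          rw [map_mul, map_mul, map_mul, map_inv, map_inv, h4]; group
        have h6 := hinj _ (mul_mem (mul_mem (mul_mem (hFH (h1 ha)) (hFH hx)) (inv_mem (hFH (h1 ha)))) (inv_mem (hFH hx))) h5
        rw [mul_inv_eq_one, mul_inv_eq_iff_eq_mul] at h6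
        exact h6
      refine ⟨x, ?_, rfl⟩
      have h4 : x ∈ (fittingSubgroup H).map H.subtype ⊓ centralizer (A : Set S) := ⟨hx, hxA⟩
      rwa [h3] at h4
    · rintro _ ⟨a, ha, rfl⟩
      have ha' : a ∈ (fittingSubgroup H).map H.subtype ⊓ centralizer (A : Set S) := by rw [h3]; exact ha
      refine ⟨⟨a, ha'.1, rfl⟩, ?_⟩
      change f a ∈ centralizer _
      rw [mem_centralizer_iff]
      rintro _ ⟨b, hb, rfl⟩
      rw [← map_mul, ← map_mul, mem_centralizer_iff.1 ha'.2 b hb]

theorem result {S : Type u} [Group S] [Finite S] [Group.IsSolvable S]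
    (π : Set ℕ) (h2 : 2 ∉ π) (h3 : 3 ∉ π) (H : Subgroup S) (hH : Cfsg.IsPiHall π H)
    (A : Subgroup S) (hA : Cfsg.IsSCN ((Cfsg.fittingSubgroup H).map H.subtype) A) :
    ∃ D : Subgroup S, D ≤ Subgroup.centralizer (A : Set S) ∧
      (∀ c ∈ Subgroup.centralizer (A : Set S), ∀ d ∈ D, c * d * c⁻¹ ∈ D) ∧
      A ⊓ D = ⊥ ∧ A ⊔ D = Subgroup.centralizer (A : Set S) ∧
      ∀ q : ℕ, q.Prime → q ∣ Nat.card D → q ∉ π := by
  set K := piCore πᶜ S with hK
  set f := QuotientGroup.mk' K with hf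
  have hfs : Function.Surjective f := QuotientGroup.mk'_surjective K
  have hker : f.ker = K := QuotientGroup.ker_mk' K
  have hKpi := Cfsg.Agent.H12.Core.piCore_piNum (G := S) πᶜ
  have hone : ∀ x : S, x ∈ K → (∀ r : ℕ, r.Prime → r ∣ orderOf x → r ∈ π) → x = 1 := by
    intro x hx h
    by_contra hx1
    have : orderOf x ≠ 1 := fun h => hx1 (orderOf_eq_one_iff.1 h)
    obtain ⟨r, hr, hrd⟩ := Nat.exists_prime_and_dvd this
    have h4 : orderOf x ∣ Nat.card K := by
      have := orderOf_dvd_natCard (⟨_, hx⟩ : K)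
      rwa [Subgroup.orderOf_mk] at this
    exact hKpi r hr (hrd.trans h4) (h r hr hrd)
  have hinj : ∀ h ∈ H, f h = 1 → h = 1 := by
    intro h hh hfh
    apply hone h (by rw [← hker]; exact hfh)
    intro r hr hrd
    apply hH.1 r hr
    have := orderOf_dvd_natCard (⟨_, hh⟩ : H)
    rw [Subgroup.orderOf_mk] at this
    exact hrd.trans this
  have hAH : A ≤ H := hA.1.trans (map_subtype_le _)
  have hA' := scn_map f H hinj A hA
  have hHall : IsPiHall π (H.map f) := by
    refine ⟨fun r hr hrd => hH.1 r hr (hrd.trans (Subgroup.card_map_dvd _ _)), fun r hr hrπ hrd => ?_⟩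
    exact hH.2 r hr hrπ (hrd.trans (Subgroup.index_map_dvd H hfs))
  have hcore : ∀ N : Subgroup (S ⧸ K), N.Normal → (∀ p : ℕ, p.Prime → p ∣ Nat.card N → p ∉ π) → N = ⊥ := by
    intro N hN h
    rw [← le_bot_iff, ← Cfsg.Agent.H12.BG8.piCore_quotient_eq_bot (X := S) πᶜ]
    exact Cfsg.Agent.H12.Core.le_piCore hN h
  set C : Subgroup S := centralizer (A : Set S) with hC
  have hAC : A ≤ C := by
    intro a ha
    rw [← hA.2.2] at ha
    exact ha.2
  -- the index of A in C is prime to π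
  have hidx : ∀ q : ℕ, q.Prime → q ∈ π → ¬ q ∣ A.relIndex C := by
    intro q hq hqπ hqd
    haveI : Fact q.Prime := ⟨hq⟩
    obtain ⟨P⟩ : Nonempty (Sylow q C) := inferInstance
    set P' : Subgroup S := (P : Subgroup C).map C.subtype with hP'
    have hP'p : IsPGroup q P' := P.isPGroup'.map _
    have h4 : P'.map f ≤ A.map f := by
      rintro _ ⟨x, hx, rfl⟩
      obtain ⟨k, hk⟩ := hP'p ⟨x, hx⟩
      have hk' : x ^ q ^ k = 1 := congrArg Subtype.val hk
      refine key h2 h3 hcore (H.map f) hHall (A.map f) hA' hq hqπ (k := k) (by rw [← map_pow, hk', map_one]) ?_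
      rw [mem_centralizer_iff]
      rintro _ ⟨a, ha, rfl⟩
      have hxC : x ∈ C := map_subtype_le _ hx
      rw [← map_mul, ← map_mul, mem_centralizer_iff.1 hxC a ha]
    have h5 : Nat.card (P'.map f) = Nat.card P' := by
      have hinj2 : Function.Injective (f.domRestrict P') := by
        rw [injective_iff_map_eq_one]
        intro x hx
        apply Subtype.ext
        apply hone (x : S) (by rw [← hker]; exact hx)
        intro r hr hrd
        obtain ⟨k, hk⟩ := hP'p x
        have h6 : orderOf (x : S) ∣ q ^ k := orderOf_dvd_of_pow_eq_one (congrArg Subtype.val hk)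
        rw [(Nat.prime_dvd_prime_iff_eq hr hq).1 (hr.dvd_of_dvd_pow (hrd.trans h6))]
        exact hqπ
      have h7 : (f.domRestrict P').range = P'.map f := by
        ext y
        constructor
        · rintro ⟨x, rfl⟩; exact ⟨x, x.2, rfl⟩
        · rintro ⟨x, hx, rfl⟩; exact ⟨⟨x, hx⟩, rfl⟩
      rw [← h7]
      exact (Nat.card_congr (MonoidHom.ofInjective hinj2).toEquiv).symm
    have h6 : Nat.card P' ∣ Nat.card A := by
      rw [← h5]
      exact (Subgroup.card_dvd_of_le h4).trans (Subgroup.card_map_dvd _ _)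
    have h7 : Nat.card P' = q ^ (Nat.card C).factorization q := by
      rw [hP', Subgroup.card_map_of_injective C.subtype_injective, P.card_eq_multiplicity]
    have h8 := Cfsg.Agent.H1.Basic.relIndex_mul_card hAC
    have h9 : q ^ ((Nat.card C).factorization q + 1) ∣ Nat.card C := by
      rw [pow_succ, mul_comm, ← h7]
      conv_rhs => rw [← h8]
      exact mul_dvd_mul hqd h6
    exact (Nat.pow_succ_factorization_not_dvd Nat.card_pos.ne' hq) h9
  -- complement
  have hcen : ∀ a ∈ A, ∀ c ∈ C, a * c = c * a := fun a ha c hc => mem_centralizer_iff.1 hc a ha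
  haveI : (A.subgroupOf C).Normal := by
    refine ⟨fun a ha c => ?_⟩
    rw [mem_subgroupOf] at ha ⊢
    have : ((c * a * c⁻¹ : C) : S) = a := by
      push_cast
      rw [← hcen a ha c c.2]; group
    rw [this]; exact ha
  have hcop : Nat.Coprime (Nat.card (A.subgroupOf C)) (A.subgroupOf C).index := by
    rw [Cfsg.Agent.H1.Basic.card_subgroupOf hAC]
    rw [Nat.coprime_iff_gcd_eq_one]
    by_contra hne
    obtain ⟨r, hr, hrd⟩ := Nat.exists_prime_and_dvd hne
    have h4 : r ∈ π := hH.1 r hr (((hrd.trans (Nat.gcd_dvd_left _ _))).trans (Subgroup.card_dvd_of_le hAH))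
    exact hidx r hr h4 (hrd.trans (Nat.gcd_dvd_right _ _))
  obtain ⟨D', hD'⟩ := Subgroup.exists_right_complement'_of_coprime hcop
  have hD1 : A ⊓ D'.map C.subtype = ⊥ := by
    rw [eq_bot_iff]
    rintro x ⟨hxA, y, hy, rfl⟩
    have h4 := hD'.disjoint
    have h5 : y ∈ A.subgroupOf C ⊓ D' := ⟨hxA, hy⟩
    rw [disjoint_iff.1 h4, mem_bot] at h5
    rw [h5]; exact one_mem _
  have hD2 : A ⊔ D'.map C.subtype = C := by
    apply le_antisymm (sup_le hAC (map_subtype_le _))
    have h4 := hD'.sup_eq_top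
    intro x hx
    have h5 : (⟨x, hx⟩ : C) ∈ A.subgroupOf C ⊔ D' := by rw [h4]; exact mem_top _
    rw [Subgroup.mem_sup_of_normal_left] at h5
    obtain ⟨a, ha, d, hd, had⟩ := h5
    have h6 : (a : S) * d = x := congrArg Subtype.val had
    rw [← h6]
    exact mul_mem (mem_sup_left ha) (mem_sup_right ⟨d, hd, rfl⟩)
  refine ⟨D'.map C.subtype, map_subtype_le _, ?_, hD1, hD2, ?_⟩
  · rintro c hc _ ⟨d, hd, rfl⟩
    have h5 : (⟨c, hc⟩ : C) ∈ A.subgroupOf C ⊔ D' := by rw [hD'.sup_eq_top]; exact mem_top _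
    rw [Subgroup.mem_sup_of_normal_left] at h5
    obtain ⟨a, ha, d', hd', had⟩ := h5
    have h6 : (a : S) * d' = c := congrArg Subtype.val had
    refine ⟨d' * d * d'⁻¹, mul_mem (mul_mem hd' hd) (inv_mem hd'), ?_⟩
    rw [← h6]
    change ((d' * d * d'⁻¹ : C) : S) = _
    have h7 := hcen a ha ((d' * d * d'⁻¹ : C) : S) (d' * d * d'⁻¹ : C).2
    calc ((d' * d * d'⁻¹ : C) : S) = ((a : S) * ((d' * d * d'⁻¹ : C) : S)) * (a : S)⁻¹ := by rw [h7]; group
      _ = _ := by push_cast; simp only [Subgroup.coe_subtype]; group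
  · intro q hq hqd hqπ
    apply hidx q hq hqπ
    have h8 := hD'.symm.index_eq_card
    rw [Subgroup.relIndex, h8]
    rwa [Subgroup.card_map_of_injective C.subtype_injective] at hqd

end Cfsg.Agent.H13.SCNH
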