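import Mathlib
import Cfsg.Agent.H4_SE
import Cfsg.Agent.H17_StrEmb
set_option autoImplicit false
set_option linter.all false

namespace Cfsg.Agent.H13.SEm

open Cfsg Cfsg.Agent.H4.SE Cfsg.Agent.H4.Inv Cfsg.Agent.H17.Base Cfsg.Agent.H17.StrEmb

variable {S : Type*} [Group S] [Finite S]

theorem odd_of (M : Subgroup S)
    (hC : ∀ i ∈ M, orderOf i = 2 → Subgroup.centralizer ({i} : Set S) ≤ M) {i j : S} (hi : i ∈ M) (hi2 : orderOf i = 2)
    (hj : j ∉ M) (hj2 : orderOf j = 2) : Odd (orderOf (i * j)) := by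
  rw [← Nat.not_even_iff_odd]
  intro he
  obtain ⟨h1, h2, h3⟩ := even_central hi2 hj2 (orderOf_pos _).ne' he
  set z := (i * j) ^ (orderOf (i * j) / 2)
  have hz : z ∈ M := hC i hi hi2 (by
    rw [Subgroup.mem_centralizer_singleton_iff]; exact h2.eq)
  exact hj (hC z hz h1 (by rw [Subgroup.mem_centralizer_singleton_iff]; exact h3.symm.eq))

theorem exists_out (M : Subgroup S) (hM : Even (Nat.card M)) (hcore : Odd (Nat.card M.normalCore)) :
    ∃ j : S, j ∉ M ∧ orderOf j = 2 := by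
  by_contra hcon
  push Not at hcon
  haveI : Fact (Nat.Prime 2) := ⟨Nat.prime_two⟩
  obtain ⟨i, hi⟩ := exists_prime_orderOf_dvd_card' (G := M) 2 hM.two_dvd
  have hi' : orderOf (i : S) = 2 := by rw [Subgroup.orderOf_coe]; exact hi
  have : (i : S) ∈ M.normalCore := by
    intro g
    by_contra h
    exact hcon _ h (by rw [Cfsg.Agent.H4.Inv.orderOf_conj, hi'])
  exact (Nat.not_even_iff_odd.2 hcore) (even_of_mem hi' this)

theorem part1 (M : Subgroup S) (hM : Even (Nat.card M))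
    (hC : ∀ i ∈ M, orderOf i = 2 → Subgroup.centralizer ({i} : Set S) ≤ M) (hcore : Odd (Nat.card M.normalCore)) :
    ∀ x y : S, orderOf x = 2 → orderOf y = 2 → IsConj x y := by
  haveI : Fact (Nat.Prime 2) := ⟨Nat.prime_two⟩
  obtain ⟨j, hj, hj2⟩ := exists_out M hM hcore
  obtain ⟨i0, hi0⟩ := exists_prime_orderOf_dvd_card' (G := M) 2 hM.two_dvd
  have hi2 : orderOf (i0 : S) = 2 := by rw [Subgroup.orderOf_coe]; exact hi0
  have key : ∀ x : S, orderOf x = 2 → IsConj x j := by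
    intro x hx
    by_cases hxM : x ∈ M
    · exact isConj_of_odd hx hj2 (odd_of M hC hxM hx hj hj2)
    · exact (isConj_of_odd hi2 hx (odd_of M hC i0.2 hi2 hxM hx)).symm.trans
        (isConj_of_odd hi2 hj2 (odd_of M hC i0.2 hi2 hj hj2))
  intro x y hx hy
  exact (key x hx).trans (key y hy).symm

theorem se (M : Subgroup S) (hM : Even (Nat.card M)) (hMt : M ≠ ⊤)
    (hC : ∀ i ∈ M, orderOf i = 2 → Subgroup.centralizer ({i} : Set S) ≤ M) (X : Sylow 2 M)
    (hN : Subgroup.normalizer (((X : Subgroup M).map M.subtype : Subgroup S) : Set S) ≤ M) :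
    IsStronglyEmbedded M := by
  haveI : Fact (Nat.Prime 2) := ⟨Nat.prime_two⟩
  have h := iForm_of_centralizers (isSylowIn_map X) hN hC
  refine ⟨hMt, hM, fun g hg => ?_⟩
  rw [← Nat.not_even_iff_odd, even_iff_two_dvd]
  exact h g hg

theorem part2 (M : Subgroup S) (hSE : IsStronglyEmbedded M) (I : M) (hI : orderOf I = 2) :
    (∀ x y : M, orderOf x = 2 → orderOf y = 2 → IsConj x y) ∧
          ∃ M₀ : Subgroup M, Odd (Nat.card M₀) ∧
            ∀ m : M, ∃ a ∈ M₀, ∃ c ∈ Subgroup.centralizer ({I} : Set M), m = a * c := by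
  obtain ⟨g, hg⟩ : ∃ g : S, g ∉ M := by
    by_contra hcon
    push Not at hcon
    exact hSE.1 (eq_top_iff.2 fun g _ => hcon g)
  set x : S ⧸ M := QuotientGroup.mk 1 with hx
  set y : S ⧸ M := QuotientGroup.mk g with hy
  have hxy : x ≠ y := by
    intro h
    rw [hx, hy, QuotientGroup.eq] at h
    apply hg
    simpa using h
  have hfix : ∀ s : S, s • x = x ↔ s ∈ M := by
    intro s
    rw [hx, smul_mk_eq_iff]
    simp
  have hfixy : ∀ s : S, s • y = y ↔ g⁻¹ * s * g ∈ M := by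
    intro s
    rw [hy, smul_mk_eq_iff]
  have ho : ∀ m : M, orderOf m = 2 → orderOf (m : S) = 2 := fun m hm => by rw [Subgroup.orderOf_coe]; exact hm
  have key : ∀ s t : M, orderOf s = 2 → orderOf t = 2 → ∃ d : M, g⁻¹ * (d : S) * g ∈ M ∧ d * s * d⁻¹ = t := by
    intro s t hs ht
    obtain ⟨d, h1, h2, h3⟩ := conj_two_point hSE hxy (ho s hs) (ho t ht) ((hfix _).2 s.2) ((hfix _).2 t.2)
    refine ⟨⟨d, (hfix d).1 h1⟩, (hfixy d).1 h2, ?_⟩
    apply Subtype.ext
    exact h3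
  refine ⟨fun s t hs ht => ?_, ?_⟩
  · obtain ⟨d, _, hd⟩ := key s t hs ht
    exact isConj_iff.2 ⟨d, hd⟩
  · refine ⟨(M ⊓ M.map (MulAut.conj g).toMonoidHom).subgroupOf M, ?_, ?_⟩
    · rw [Nat.card_congr (Subgroup.subgroupOfEquivOfLe (inf_le_left : M ⊓ M.map (MulAut.conj g).toMonoidHom ≤ M)).toEquiv]
      exact hSE.2.2 g hg
    · intro m
      obtain ⟨d, h1, h2⟩ := key I (m * I * m⁻¹) hI (by rw [Cfsg.Agent.H4.Inv.orderOf_conj]; exact hI)
      refine ⟨d, ?_, d⁻¹ * m, ?_, by group⟩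
      · rw [Subgroup.mem_subgroupOf, mem_inf_conj]
        exact ⟨d.2, h1⟩
      · rw [Subgroup.mem_centralizer_singleton_iff]
        calc d⁻¹ * m * I = d⁻¹ * (m * I * m⁻¹) * m := by group
          _ = d⁻¹ * (d * I * d⁻¹) * m := by rw [h2]
          _ = I * (d⁻¹ * m) := by group

theorem result (M : Subgroup S) (hM : Even (Nat.card M))
    (hC : ∀ i ∈ M, orderOf i = 2 → Subgroup.centralizer ({i} : Set S) ≤ M) (hcore : Odd (Nat.card M.normalCore)) :
    (∀ x y : S, orderOf x = 2 → orderOf y = 2 → IsConj x y) ∧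
      ∀ (X : Sylow 2 M) (I : M), I ∈ (Subgroup.center ↥(X : Subgroup ↥M)).map (X : Subgroup ↥M).subtype → orderOf I = 2 →
        Subgroup.normalizer (((X : Subgroup M).map M.subtype : Subgroup S) : Set S) ≤ M →
        (∀ x y : M, orderOf x = 2 → orderOf y = 2 → IsConj x y) ∧
          ∃ M₀ : Subgroup M, Odd (Nat.card M₀) ∧
            ∀ m : M, ∃ a ∈ M₀, ∃ c ∈ Subgroup.centralizer ({I} : Set M), m = a * c := by
  refine ⟨part1 M hM hC hcore, fun X I _ hI hN => ?_⟩
  have hMt : M ≠ ⊤ := by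
    obtain ⟨j, hj, _⟩ := exists_out M hM hcore
    rintro rfl
    exact hj (Subgroup.mem_top _)
  exact part2 M (se M hM hMt hC X hN) I hI

end Cfsg.Agent.H13.SEm
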