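import Cfsg.Agent.H13_Sgn
import Cfsg.Agent.H13_Syl

/-!
A transfer theorem with a dihedral complement.
-/

set_option autoImplicit false
set_option linter.all false

namespace Cfsg.Agent.H13.Sgn

open Subgroup Cfsg Cfsg.Agent.H13.Syl

variable {G : Type*} [Group G] [Finite G]

theorem card_rel {A B : Subgroup G} (h : A ≤ B) : Nat.card A * A.relIndex B = Nat.card B := by
  have h1 := (A.subgroupOf B).card_mul_index
  rwa [Nat.card_congr (Subgroup.subgroupOfEquivOfLe h).toEquiv] at h1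

/-- order of a set product with trivial intersection -/
theorem card_mul_le {A B X : Subgroup G} (hA : A ≤ X) (hB : B ≤ X) (h : A ⊓ B = ⊥) :
    Nat.card A * Nat.card B ≤ Nat.card X := by
  have hinj : Function.Injective (fun ab : A × B => (⟨ab.1 * ab.2, X.mul_mem (hA ab.1.2) (hB ab.2.2)⟩ : X)) := by
    rintro ⟨a, b⟩ ⟨c, d⟩ h1
    have h2 : (a : G) * b = c * d := congrArg Subtype.val h1
    have h3 : (c : G)⁻¹ * a = d * (b : G)⁻¹ := by
      rw [eq_mul_inv_iff_mul_eq, mul_assoc, h2]; group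
    have h4 : (c : G)⁻¹ * a ∈ A ⊓ B := by
      refine ⟨A.mul_mem (A.inv_mem c.2) a.2, ?_⟩
      rw [h3]; exact B.mul_mem d.2 (B.inv_mem b.2)
    rw [h, mem_bot] at h4
    have h5 : (c : G) = a := by rw [← mul_one (c : G), ← h4]; group
    rw [h4, eq_comm, mul_inv_eq_one] at h3
    exact Prod.ext (Subtype.ext h5.symm) (Subtype.ext h3.symm)
  have := Nat.card_le_card_of_injective _ hinj
  rwa [Nat.card_prod] at this

/-- if the orders multiply, the product is everything -/
theorem exists_mul_eq {A B X : Subgroup G} (hA : A ≤ X) (hB : B ≤ X) (h : A ⊓ B = ⊥)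
    (hc : Nat.card A * Nat.card B = Nat.card X) {x : G} (hx : x ∈ X) : ∃ a ∈ A, ∃ b ∈ B, x = a * b := by
  have hinj : Function.Injective (fun ab : A × B => (⟨ab.1 * ab.2, X.mul_mem (hA ab.1.2) (hB ab.2.2)⟩ : X)) := by
    rintro ⟨a, b⟩ ⟨c, d⟩ h1
    have h2 : (a : G) * b = c * d := congrArg Subtype.val h1
    have h3 : (c : G)⁻¹ * a = d * (b : G)⁻¹ := by
      rw [eq_mul_inv_iff_mul_eq, mul_assoc, h2]; group
    have h4 : (c : G)⁻¹ * a ∈ A ⊓ B := by
      refine ⟨A.mul_mem (A.inv_mem c.2) a.2, ?_⟩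
      rw [h3]; exact B.mul_mem d.2 (B.inv_mem b.2)
    rw [h, mem_bot] at h4
    have h5 : (c : G) = a := by rw [← mul_one (c : G), ← h4]; group
    rw [h4, eq_comm, mul_inv_eq_one] at h3
    exact Prod.ext (Subtype.ext h5.symm) (Subtype.ext h3.symm)
  have hbij := (Nat.bijective_iff_injective_and_card _).2 ⟨hinj, by rw [Nat.card_prod]; exact hc⟩
  obtain ⟨⟨a, b⟩, hab⟩ := hbij.2 ⟨x, hx⟩
  exact ⟨a, a.2, b, b.2, (congrArg Subtype.val hab).symm⟩

/-- elements outside a cyclic subgroup of index two of a dihedral group are involutions -/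
theorem dihedral_out {n : ℕ} (hn : 2 ≤ n) (C : Subgroup (DihedralGroup n)) (hC : IsCyclic C) (hi : C.index = 2)
    {x : DihedralGroup n} (hx : x ∉ C) : orderOf x = 2 := by
  have : NeZero n := ⟨by omega⟩
  have hcard : Nat.card C = n := by
    have h1 := C.card_mul_index
    rw [hi, DihedralGroup.nat_card] at h1
    omega
  have hx1 : x ≠ 1 := by rintro rfl; exact hx (one_mem _)
  rcases eq_or_lt_of_le hn with h2 | h3
  · -- Klein four group
    subst h2
    have h : x ^ 2 = 1 := by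
      rcases x with i | i
      · rw [pow_two, DihedralGroup.r_mul_r]
        have : ∀ i : ZMod 2, i + i = 0 := by decide
        rw [this i]; rfl
      · rw [pow_two, DihedralGroup.sr_mul_self]
    exact orderOf_eq_prime h hx1
  · rcases x with i | i
    · exfalso
      apply hx
      -- `C` contains a generator which is a rotation
      obtain ⟨⟨g, hg⟩, hgen⟩ := hC.exists_generator
      have hgo : orderOf g = n := by
        have h4 : orderOf (⟨g, hg⟩ : C) = Nat.card C := orderOf_eq_card_of_forall_mem_zpowers hgen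
        rw [Subgroup.orderOf_mk, hcard] at h4
        exact h4
      rcases g with j | j
      · -- zpowers g = all rotations
        have hle : zpowers (DihedralGroup.r j) ≤ zpowers (DihedralGroup.r (1 : ZMod n)) := by
          rw [zpowers_le]
          refine ⟨(j.val : ℤ), ?_⟩
          simp [DihedralGroup.r_one_pow]
        have heq : zpowers (DihedralGroup.r j) = zpowers (DihedralGroup.r (1 : ZMod n)) := by
          have : Finite (zpowers (DihedralGroup.r (1 : ZMod n))) := inferInstance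
          apply eq_of_le_of_card_ge hle
          rw [Nat.card_zpowers, Nat.card_zpowers, hgo, DihedralGroup.orderOf_r_one]
        have hi' : DihedralGroup.r i ∈ zpowers (DihedralGroup.r (1 : ZMod n)) := by
          refine ⟨(i.val : ℤ), ?_⟩
          simp [DihedralGroup.r_one_pow]
        rw [← heq] at hi'
        exact (zpowers_le.2 hg) hi'
      · rw [DihedralGroup.orderOf_sr] at hgo
        omega
    · exact DihedralGroup.orderOf_sr i

theorem result (L T S D C : Subgroup G) (hL : pResidual 2 ↥L = ⊤)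
    (hTL : T ≤ L) (hT2 : IsPGroup 2 T) (hTsyl : ¬ 2 ∣ T.relIndex L)
    (hS2 : IsPGroup 2 S) (hSsyl : ¬ 2 ∣ S.index) (hTS : T ≤ S)
    (hDS : D ≤ S) (hDih : ∃ n : ℕ, 2 ≤ n ∧ Nonempty (↥D ≃* DihedralGroup n)) (hDT : D ⊓ T = ⊥)
    (hTDc : Nat.card T * Nat.card D = Nat.card S)
    (hCD : C ≤ D) (hC : IsCyclic ↥C) (hCi : C.relIndex D = 2)
    (h1 : ∀ x ∈ D, x ∉ C → orderOf x = 2 → ∀ g : G, g * x * g⁻¹ ∈ T ⊔ C → False)
    (h2 : ∀ c ∈ C, orderOf c = 2 → ∀ g : G, g * c * g⁻¹ ∈ T → False) :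
    ∃ K : Subgroup G, K.Normal ∧ K ⊔ D = ⊤ ∧
      ∀ T' : Subgroup G, T' ≤ L → IsPGroup 2 T' → ¬ 2 ∣ T'.relIndex L → T' ≤ K ∧ ¬ 2 ∣ T'.relIndex K := by
  classical
  have hf2 : Fact (Nat.Prime 2) := ⟨Nat.prime_two⟩
  set K := pResidual 2 G with hK
  have hKn : K.Normal := pResidual_normal 2 G
  have hLK : L ≤ K := by
    have h3 : (pResidual 2 ↥L).map L.subtype ≤ K := by
      rw [Subgroup.map_le_iff_le_comap]
      conv_lhs => unfold pResidual
      rw [closure_le]
      intro g hg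
      apply Subgroup.subset_closure
      show Nat.Coprime (orderOf (g : G)) 2
      rw [Subgroup.orderOf_coe]; exact hg
    rw [hL, ← MonoidHom.range_eq_map, Subgroup.range_subtype] at h3
    exact h3
  have hTK : T ≤ K := hTL.trans hLK
  have hTD : T ⊓ D = ⊥ := by rw [inf_comm]; exact hDT
  have hS : IsSylIn 2 S ⊤ := ⟨le_top, hS2, by rw [Subgroup.relIndex_top_right]; exact hSsyl⟩
  -- orders
  have hcC : 2 * Nat.card C = Nat.card D := by
    have := card_rel hCD
    rw [hCi] at this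
    omega
  have hout : ∀ x ∈ D, x ∉ C → orderOf x = 2 := by
    obtain ⟨n, hn, ⟨e⟩⟩ := hDih
    intro x hx hxC
    have hC' : IsCyclic ((C.subgroupOf D).map e.toMonoidHom) := by
      have e1 : C ≃* (C.subgroupOf D).map e.toMonoidHom :=
        (Subgroup.subgroupOfEquivOfLe hCD).symm.trans (e.subgroupMap _)
      exact isCyclic_of_surjective e1.toMonoidHom e1.surjective
    have hi : ((C.subgroupOf D).map e.toMonoidHom).index = 2 := by
      have h3 : ((C.subgroupOf D).map e.toMonoidHom).index = (C.subgroupOf D).index :=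
        Subgroup.index_map_equiv _ e
      rw [h3]; exact hCi
    have h4 : e ⟨x, hx⟩ ∉ (C.subgroupOf D).map e.toMonoidHom := by
      rintro ⟨y, hy, hyx⟩
      have : y = ⟨x, hx⟩ := e.injective hyx
      rw [this] at hy; exact hxC hy
    have h5 := dihedral_out hn _ hC' hi h4
    rw [MulEquiv.orderOf_eq, Subgroup.orderOf_mk] at h5
    exact h5
  -- elements outside `C` are not in `K`
  have hcl1 : ∀ x ∈ D, x ∉ C → x ∉ K := by
    intro x hx hxC
    apply notMem_pResidual (T ⊔ C) x 0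
    · have := hout x hx hxC
      simpa using (orderOf_eq_prime_iff.1 this).1
    · intro g hg
      apply h1 x hx hxC (hout x hx hxC) g
      simpa using hg
    · -- the index is twice an odd number
      have hMS : T ⊔ C ≤ S := sup_le hTS (hCD.trans hDS)
      have hle := card_mul_le (A := T) (B := C) (X := T ⊔ C) le_sup_left le_sup_right
        (le_bot_iff.1 (hTD ▸ inf_le_inf_left _ hCD))
      have h3 : (T ⊔ C).relIndex S ≤ 2 := by
        have h4 := card_rel hMS
        by_contra hc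
        push Not at hc
        have h5 : Nat.card S = Nat.card T * (2 * Nat.card C) := by rw [hcC, hTDc]
        have hpos : 0 < Nat.card (T ⊔ C : Subgroup G) := Nat.card_pos
        nlinarith
      intro hd
      have h4 : (T ⊔ C).index = (T ⊔ C).relIndex S * S.index := (Subgroup.relIndex_mul_index hMS).symm
      rw [h4] at hd
      have h5 : Nat.Coprime (2 ^ 2) S.index := Nat.Coprime.pow_left _ ((Nat.Prime.coprime_iff_not_dvd Nat.prime_two).2 hSsyl)
      have h6 := h5.dvd_of_dvd_mul_right hd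
      have h7 : (T ⊔ C).relIndex S ≠ 0 := by
        intro h0
        have h8 := card_rel hMS
        rw [h0, mul_zero] at h8
        exact (Nat.card_pos (α := S)).ne' h8.symm
      have := Nat.le_of_dvd (Nat.pos_of_ne_zero h7) h6
      omega
  have hDK : D ⊓ K ≤ C := by
    rintro x ⟨hx1, hx2⟩
    by_contra hxC
    exact hcl1 x hx1 hxC hx2
  -- `S ∩ K = T (D ∩ K)`
  have hSK : ∀ x ∈ S ⊓ K, ∃ t ∈ T, ∃ d ∈ D ⊓ K, x = t * d := by
    rintro x ⟨hx1, hx2⟩
    obtain ⟨t, ht, d, hd, rfl⟩ := exists_mul_eq hTS hDS hTD hTDc hx1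
    refine ⟨t, ht, d, ⟨hd, ?_⟩, rfl⟩
    have : d = t⁻¹ * (t * d) := by group
    change d ∈ K
    rw [this]; exact K.mul_mem (K.inv_mem (hTK ht)) hx2
  have hSKc : Nat.card (S ⊓ K : Subgroup G) = Nat.card T * Nat.card (D ⊓ K : Subgroup G) := by
    have hle := card_mul_le (A := T) (B := D ⊓ K) (X := S ⊓ K) (le_inf hTS hTK)
      (inf_le_inf_right _ hDS) (le_bot_iff.1 (hTD ▸ inf_le_inf_left _ inf_le_left))
    refine le_antisymm ?_ hle
    have hsurj : Function.Surjective (fun ab : T × (D ⊓ K : Subgroup G) => (⟨ab.1 * ab.2,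
        (S ⊓ K).mul_mem ⟨hTS ab.1.2, hTK ab.1.2⟩ ⟨hDS ab.2.2.1, ab.2.2.2⟩⟩ : (S ⊓ K : Subgroup G))) := by
      rintro ⟨x, hx⟩
      obtain ⟨t, ht, d, hd, rfl⟩ := hSK x hx
      exact ⟨⟨⟨t, ht⟩, ⟨d, hd⟩⟩, rfl⟩
    have := Nat.card_le_card_of_surjective _ hsurj
    rwa [Nat.card_prod] at this
  have hSKs : IsSylIn 2 (S ⊓ K) K := hS.inf_of_le_normalizer le_top (by rw [Subgroup.normalizer_eq_top K])
  -- `D ∩ K = 1`
  have hDK1 : D ⊓ K = ⊥ := by
    by_contra hne
    have hcyc : IsCyclic (D ⊓ K : Subgroup G) := by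
      have : IsCyclic ((D ⊓ K).subgroupOf C) := inferInstance
      exact isCyclic_of_surjective (Subgroup.subgroupOfEquivOfLe hDK).toMonoidHom
        (Subgroup.subgroupOfEquivOfLe hDK).surjective
    obtain ⟨⟨c, hc⟩, hgen⟩ := hcyc.exists_generator
    have hco : orderOf c = Nat.card (D ⊓ K : Subgroup G) := by
      have h4 : orderOf (⟨c, hc⟩ : (D ⊓ K : Subgroup G)) = Nat.card (D ⊓ K : Subgroup G) :=
        orderOf_eq_card_of_forall_mem_zpowers hgen
      rwa [Subgroup.orderOf_mk] at h4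
    obtain ⟨m, hm⟩ := IsPGroup.iff_card.1 (hS2.to_le (inf_le_left.trans hDS : D ⊓ K ≤ S))
    have hm0 : m ≠ 0 := by
      rintro rfl
      rw [pow_zero] at hm
      exact hne (Subgroup.eq_bot_of_card_eq _ hm)
    obtain ⟨m, rfl⟩ := Nat.exists_eq_succ_of_ne_zero hm0
    rw [hm] at hco
    have hcK : c ∈ K := hc.2
    have hKK : pResidual 2 ↥K = ⊤ := pResidual_pResidual 2 G
    have hmem : (⟨c, hcK⟩ : K) ∈ pResidual 2 ↥K := by rw [hKK]; trivial
    refine notMem_pResidual (T.subgroupOf K) (⟨c, hcK⟩ : K) m ?_ ?_ ?_ hmem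
    · apply Subtype.ext
      have : c ^ 2 ^ (m + 1) = 1 := by rw [← hco]; exact pow_orderOf_eq_one c
      simpa using this
    · rintro ⟨g, hg⟩ hgc
      have hgc' : g * c ^ 2 ^ m * g⁻¹ ∈ T := hgc
      refine h2 (c ^ 2 ^ m) (C.pow_mem (hDK hc) _) ?_ g hgc'
      rw [orderOf_pow, hco]
      have h5 : (2 ^ (m + 1)).gcd (2 ^ m) = 2 ^ m := Nat.gcd_eq_right (pow_dvd_pow 2 (Nat.le_succ m))
      rw [h5, pow_succ]
      exact Nat.mul_div_cancel_left 2 (by positivity)
    · intro hd
      change 2 ^ (m + 2) ∣ T.relIndex K at hd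
      have h3 := Subgroup.relIndex_mul_relIndex T (S ⊓ K) K (le_inf hTS hTK) inf_le_right
      rw [← h3] at hd
      have h5 : Nat.Coprime (2 ^ (m + 2)) ((S ⊓ K).relIndex K) :=
        Nat.Coprime.pow_left _ ((Nat.Prime.coprime_iff_not_dvd Nat.prime_two).2 hSKs.2.2)
      have h6 := h5.dvd_of_dvd_mul_right hd
      have h7 : T.relIndex (S ⊓ K) = 2 ^ (m + 1) := by
        have h8 := card_rel (le_inf hTS hTK : T ≤ S ⊓ K)
        rw [hSKc, hm] at h8
        exact Nat.eq_of_mul_eq_mul_left Nat.card_pos h8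
      rw [h7] at h6
      have := Nat.le_of_dvd (by positivity) h6
      rw [pow_succ 2 (m + 1)] at this
      have h9 : 0 < 2 ^ (m + 1) := by positivity
      omega
  have hSKT : S ⊓ K = T := by
    symm
    apply Subgroup.eq_of_le_of_card_ge (le_inf hTS hTK)
    rw [hSKc, hDK1, Subgroup.card_bot, mul_one]
  have hTKs : IsSylIn 2 T K := by rw [← hSKT]; exact hSKs
  refine ⟨K, hKn, ?_, ?_⟩
  · have h3 := pResidual_sup (G := G) 2 hSsyl
    rw [eq_top_iff, ← h3]
    apply sup_le le_sup_left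
    intro x hx
    obtain ⟨t, ht, d, hd, rfl⟩ := exists_mul_eq hTS hDS hTD hTDc hx
    exact mul_mem ((le_sup_left : K ≤ K ⊔ D) (hTK ht)) ((le_sup_right : D ≤ K ⊔ D) hd)
  · intro T' hT'L hT'2 hT's
    refine ⟨hT'L.trans hLK, ?_⟩
    obtain ⟨x, hx, hxT⟩ := IsSylIn.exists_conj_eq (p := 2) (T := T) (T' := T') (H := L) ⟨hTL, hT2, hTsyl⟩ ⟨hT'L, hT'2, hT's⟩
    have h3 := isSylIn_of_card_le hTKs (hT'L.trans hLK) hT'2 (by rw [← hxT, card_cj])
    exact h3.2.2

end Cfsg.Agent.H13.Sgn
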