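import Cfsg.Statements.S0246
import Mathlib
import Cfsg.Agent.H5_Symp
import Cfsg.Agent.H5_GL

set_option autoImplicit false
open Cfsg

namespace Cfsg.Agent.S0246

/-- The centre of Sp_{2m}(q), m at least 1, is {1, -1}: it has order gcd(2, q-1). -/
theorem result {F : Type*} [Field F] [Fintype F] {q : ℕ} (hF : Fintype.card F = q) (m : ℕ) (hm : 1 ≤ m) : Nat.card (Subgroup.center (Matrix.symplecticGroup (Fin m) F)) = Nat.gcd 2 (q - 1) := by
  classical
  have hm' : Nonempty (Fin m) := ⟨⟨0, by omega⟩⟩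
  -- the centre is {λ : λ² = 1}
  have hmem : ∀ g : Matrix.symplecticGroup (Fin m) F, g ∈ Subgroup.center (Matrix.symplecticGroup (Fin m) F) →
      ∃ c : F, c ^ 2 = 1 ∧ (g : Matrix (Fin m ⊕ Fin m) (Fin m ⊕ Fin m) F) = c • 1 := by
    intro g hg
    have hline : ∀ v : Fin m ⊕ Fin m → F, ¬ LinearIndependent F ![v, (Matrix.toLin' g.1) v] := by
      intro v hli
      have hv : v ≠ 0 := hli.ne_zero 0
      have h1 := H5.Symp.conj_T g v 1
      rw [Subgroup.mem_center_iff] at hg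
      rw [← hg (H5.Symp.T v 1), mul_inv_cancel_right] at h1
      obtain ⟨x, hx⟩ := H5.Symp.exists_ne hv
      have hxv : Cfsg.sympForm m F x v ≠ 0 := by
        rw [H5.Symp.swap v x]; exact neg_ne_zero.mpr hx
      have h2 := congrArg (fun A : Matrix.symplecticGroup (Fin m) F =>
        (A : Matrix (Fin m ⊕ Fin m) (Fin m ⊕ Fin m) F).mulVec x) h1
      rw [H5.Symp.T_apply, H5.Symp.T_apply, add_right_inj] at h2
      rw [LinearIndependent.pair_iff] at hli
      have := hli (1 * Cfsg.sympForm m F x v)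
        (-(1 * Cfsg.sympForm m F x (g.1.mulVec v))) (by
          rw [Matrix.toLin'_apply, neg_smul, h2, add_neg_cancel])
      exact hxv (by simpa using this.1)
    obtain ⟨c, hc⟩ := LinearMap.exists_eq_smul_id_of_forall_notLinearIndependent hline
    have hgc : (g : Matrix (Fin m ⊕ Fin m) (Fin m ⊕ Fin m) F) = c • 1 := by
      apply H5.Symp.ext_mulVec
      intro x
      rw [← Matrix.toLin'_apply, hc]
      simp [Matrix.smul_mulVec]
    refine ⟨c, ?_, hgc⟩
    obtain ⟨i⟩ := hm'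
    have h3 := (H5.Conc.mem_symplecticGroup_iff g.1).mp g.2 (Pi.single (.inr i) 1) (Pi.single (.inl i) 1)
    rw [hgc, Matrix.smul_mulVec, Matrix.smul_mulVec, Matrix.one_mulVec, Matrix.one_mulVec,
      H5.Symp.smul_left, H5.Symp.smul_right, H5.Conc.sympForm_single_inr] at h3
    simp only [Pi.single_eq_same, mul_one] at h3
    rw [sq]; exact h3
  have hsc : ∀ c : F, c ^ 2 = 1 → (c • (1 : Matrix (Fin m ⊕ Fin m) (Fin m ⊕ Fin m) F)) ∈
      Matrix.symplecticGroup (Fin m) F := by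
    intro c hc
    rw [H5.Conc.mem_symplecticGroup_iff]
    intro u v
    rw [Matrix.smul_mulVec, Matrix.smul_mulVec, Matrix.one_mulVec, Matrix.one_mulVec,
      H5.Symp.smul_left, H5.Symp.smul_right, ← mul_assoc, ← sq, hc, one_mul]
  have h4 : Nat.card (powMonoidHom 2 : Fˣ →* Fˣ).ker = Nat.gcd 2 (q - 1) := by
    rw [IsCyclic.card_powMonoidHom_ker, H5.GL.card_units hF, Nat.gcd_comm]
  rw [← h4]
  symm
  refine Nat.card_congr (Equiv.ofBijective (fun c => ⟨⟨((c.1 : Fˣ) : F) • 1, hsc _ ?_⟩, ?_⟩) ⟨?_, ?_⟩)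
  · have := c.2
    rw [MonoidHom.mem_ker, powMonoidHom_apply] at this
    have h := congrArg Units.val this
    rw [Units.val_pow_eq_pow_val, Units.val_one] at h
    exact h
  · rw [Subgroup.mem_center_iff]
    intro g
    apply Subtype.ext
    rw [Submonoid.coe_mul, Submonoid.coe_mul]
    simp
  · intro c d hcd
    obtain ⟨i⟩ := hm'
    have h5 : ((c.1 : Fˣ) : F) • (1 : Matrix (Fin m ⊕ Fin m) (Fin m ⊕ Fin m) F) = ((d.1 : Fˣ) : F) • 1 :=
      congrArg (fun z => (z.1.1 : Matrix (Fin m ⊕ Fin m) (Fin m ⊕ Fin m) F)) hcd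
    have h6 := congrFun (congrFun h5 (.inl i)) (.inl i)
    simp at h6
    exact Subtype.ext (Units.ext h6)
  · rintro ⟨g, hg⟩
    obtain ⟨c, hc, hgc⟩ := hmem g hg
    have hc0 : c ≠ 0 := by rintro rfl; simp at hc
    refine ⟨⟨Units.mk0 c hc0, ?_⟩, ?_⟩
    · rw [MonoidHom.mem_ker, powMonoidHom_apply]
      ext
      simpa using hc
    · apply Subtype.ext
      apply Subtype.ext
      exact hgc.symm

end Cfsg.Agent.S0246
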