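import Mathlib
import Cfsg.Agent.H13_PGs
import Cfsg.Agent.S0245
import Cfsg.Agent.S0246

/-! `PSp_6(3)`: prime graph. -/

namespace Cfsg.Agent.H13.Sp63

open Matrix Polynomial

abbrev K : Type := ZMod 3
abbrev I6 : Type := Fin 3 ⊕ Fin 3
abbrev M6 : Type := Matrix I6 I6 K

def ix : I6 → ℕ := Sum.elim (fun i => i.val) (fun i => 3 + i.val)
def ofK (n : ℕ) : K := (⟨n % 3, Nat.mod_lt _ (by norm_num)⟩ : Fin 3)
def mk6 (t : ℕ) : M6 := fun i j => ofK ((t >>> (2 * (6 * ix i + ix j))) &&& 3)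

def y7 : M6 := mk6 610482255077744919578
def y13 : M6 := mk6 295165998742766686224
def a6 : M6 := mk6 744832980361733874090
def a10 : M6 := mk6 2399915641349309831304
def a14 : M6 := mk6 1854548907556744567126
def a15 : M6 := mk6 2675429266274392819041

def jj : M6 := fun i j => match i, j with
  | .inl _, .inl _ => 0
  | .inl i, .inr j => if i = j then -1 else 0
  | .inr i, .inl j => if i = j then 1 else 0
  | .inr _, .inr _ => 0

theorem jj_eq : J (Fin 3) K = jj := by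
  ext i j
  rcases i with i | i <;> rcases j with j | j
  · rfl
  · simp [J, jj, Matrix.one_apply]
    split_ifs <;> simp
  · simp [J, jj, Matrix.one_apply]
  · rfl

def spc (A : M6) : Bool := decide (A * jj * Aᵀ = jj)

theorem mem_of (A : M6) (h : spc A = true) : A ∈ symplecticGroup (Fin 3) K := by
  rw [SymplecticGroup.mem_iff, jj_eq]
  exact of_decide_eq_true h

theorem c7 : spc y7 = true := by decide +kernel
theorem c13 : spc y13 = true := by decide +kernel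
theorem c6 : spc a6 = true := by decide +kernel
theorem c10 : spc a10 = true := by decide +kernel
theorem c14 : spc a14 = true := by decide +kernel
theorem c15 : spc a15 = true := by decide +kernel

theorem p7 : y7 ^ 7 = 1 ∧ y7 ≠ 1 := by decide +kernel
theorem p13 : y13 ^ 13 = 1 ∧ y13 ≠ 1 := by decide +kernel

theorem q6 : a6 ^ 6 = 1 ∧ (a6 ^ 3 ≠ 1 ∧ a6 ^ 3 ≠ -1) ∧ (a6 ^ 2 ≠ 1 ∧ a6 ^ 2 ≠ -1) := by decide +kernel
theorem q10 : a10 ^ 10 = 1 ∧ (a10 ^ 5 ≠ 1 ∧ a10 ^ 5 ≠ -1) ∧ (a10 ^ 2 ≠ 1 ∧ a10 ^ 2 ≠ -1) := by decide +kernel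
theorem q14 : a14 ^ 14 = -1 ∧ (a14 ^ 7 ≠ 1 ∧ a14 ^ 7 ≠ -1) ∧ (a14 ^ 2 ≠ 1 ∧ a14 ^ 2 ≠ -1) := by decide +kernel
theorem q15 : a15 ^ 15 = 1 ∧ (a15 ^ 5 ≠ 1 ∧ a15 ^ 5 ≠ -1) ∧ (a15 ^ 3 ≠ 1 ∧ a15 ^ 3 ≠ -1) := by decide +kernel

/-- the cyclic vector -/
def e7 : I6 → K := Sum.elim (fun _ => 0) ![0, 0, 1]
def e13 : I6 → K := Sum.elim ![0, 0, 1] ![0, 0, 1]

/-- Krylov matrix -/
def kry (Y : M6) (e : I6 → K) : Matrix I6 (Fin 6) K := fun i j => (Y ^ (j : ℕ) *ᵥ e) i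

def d7 : Matrix (Fin 6) I6 K := fun i j => mk6 634125968250405201236 (if h : i.val < 3 then .inl ⟨i.val, h⟩ else .inr ⟨i.val - 3, by omega⟩) j
def d13 : Matrix (Fin 6) I6 K := fun i j => mk6 159686705413469901078 (if h : i.val < 3 then .inl ⟨i.val, h⟩ else .inr ⟨i.val - 3, by omega⟩) j

theorem k7 : kry y7 e7 * d7 = 1 := by decide +kernel
theorem k13 : kry y13 e13 * d13 = 1 := by decide +kernel

/-- the centralizer of a cyclic matrix -/
theorem cyclic (Y : M6) (e : I6 → K) (D : Matrix (Fin 6) I6 K) (hD : kry Y e * D = 1) (U : M6) (hU : Commute U Y) :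
    ∃ c : Fin 6 → K, U = ∑ j, c j • Y ^ (j : ℕ) := by
  refine ⟨D *ᵥ (U *ᵥ e), ?_⟩
  set c := D *ᵥ (U *ᵥ e) with hc
  set P : M6 := ∑ j, c j • Y ^ (j : ℕ) with hP
  have h1 : P *ᵥ e = U *ᵥ e := by
    have h2 : kry Y e *ᵥ c = U *ᵥ e := by rw [hc, mulVec_mulVec, hD, one_mulVec]
    rw [← h2]
    ext i
    rw [hP, sum_mulVec]
    rw [Finset.sum_apply]
    change _ = ∑ j, kry Y e i j * c j
    refine Finset.sum_congr rfl fun j _ => ?_
    rw [smul_mulVec, Pi.smul_apply, smul_eq_mul, mul_comm]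
    rfl
  have hPY : Commute P Y := by
    rw [hP]
    refine Commute.sum_left _ _ _ fun j _ => ?_
    exact ((Commute.refl Y).pow_left _).smul_left _
  have h3 : U * kry Y e = P * kry Y e := by
    ext i j
    have h4 : ∀ V : M6, Commute V Y → (V * kry Y e) i j = (Y ^ (j : ℕ) *ᵥ (V *ᵥ e)) i := by
      intro V hV
      rw [mulVec_mulVec, ← (hV.pow_right (j : ℕ)).eq, ← mulVec_mulVec]
      rfl
    rw [h4 U hU, h4 P hPY, h1]
  have h5 : U * kry Y e * D = P * kry Y e * D := by rw [h3]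
  rw [Matrix.mul_assoc, Matrix.mul_assoc, hD, mul_one, mul_one] at h5
  exact h5

theorem exists_poly (Y : M6) (e : I6 → K) (D : Matrix (Fin 6) I6 K) (hD : kry Y e * D = 1) (U : M6) (hU : Commute U Y) :
    ∃ f : K[X], U = aeval Y f := by
  obtain ⟨c, hc⟩ := cyclic Y e D hD U hU
  refine ⟨∑ j, C (c j) * X ^ (j : ℕ), ?_⟩
  rw [hc, map_sum]
  refine Finset.sum_congr rfl fun j _ => ?_
  rw [map_mul, map_pow, aeval_X, aeval_C, Algebra.smul_def]

theorem frob (Y : M6) (f : K[X]) (k : ℕ) : (aeval Y f) ^ (3 ^ k) = aeval (Y ^ (3 ^ k)) f := by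
  have : Fact (Nat.Prime 3) := ⟨by norm_num⟩
  induction k with
  | zero => rw [pow_zero, pow_one, pow_one]
  | succ k ih =>
    rw [pow_succ, pow_mul, ih, pow_mul]
    rw [← map_pow, ← ZMod.expand_card, expand_aeval]

theorem pow_fix (Y : M6) (e : I6 → K) (D : Matrix (Fin 6) I6 K) (hD : kry Y e * D = 1) (U : M6) (hU : Commute U Y)
    (k : ℕ) (hk : Y ^ (3 ^ k) = Y) : U ^ (3 ^ k) = U := by
  obtain ⟨f, hf⟩ := exists_poly Y e D hD U hU
  rw [hf, frob, hk]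

def t2 : M6 := mk6 74111398196015087620
def t3 : M6 := mk6 1328832211605390446609
def t4 : M6 := mk6 2730550494861872746516
def t5 : M6 := mk6 1770995667001376149525

theorem pw13 : y13 ^ 2 = t2 ∧ y13 ^ 3 = t3 ∧ y13 ^ 4 = t4 ∧ y13 ^ 5 = t5 := by decide +kernel

/-- linear combinations of powers of `y13` -/
def lc (c0 c1 c2 c3 c4 c5 : K) : M6 := fun i j =>
  c0 * (if ix i = ix j then 1 else 0) + c1 * y13 i j + c2 * t2 i j + c3 * t3 i j + c4 * t4 i j + c5 * t5 i j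

/-- the check as a Boolean -/
def chk (c0 c1 c2 c3 c4 c5 : K) : Bool :=
  !decide (lc c0 c1 c2 c3 c4 c5 * lc c0 c1 c2 c3 c4 c5 = 1) || !decide (lc c0 c1 c2 c3 c4 c5 * jj * (lc c0 c1 c2 c3 c4 c5)ᵀ = jj) ||
    (c1 = 0 && c2 = 0 && c3 = 0 && c4 = 0 && c5 = 0 && (c0 = 1 || c0 = 2))

theorem chk_ok : ∀ c0 c1 c2 c3 c4 c5 : K, chk c0 c1 c2 c3 c4 c5 = true := by decide +kernel

end Cfsg.Agent.H13.Sp63
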