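import Mathlib
import Cfsg.Agent.H13_Sp63

/-! `PSp_6(3)`: prime graph. -/

namespace Cfsg.Agent.H13.Sp63

open Matrix Polynomial

abbrev Sp : Type := symplecticGroup (Fin 3) K
abbrev PS : Type := Cfsg.PSp 3 K

theorem card_Sp : Nat.card Sp = 9170703360 := by
  have h := S0245.result (F := K) (q := 3) (by decide) 3
  rw [h, Finset.prod_range_succ, Finset.prod_range_succ, Finset.prod_range_succ, Finset.prod_range_zero]
  norm_num

theorem card_Z : Nat.card (Subgroup.center Sp) = 2 := by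
  have h := S0246.result (F := K) (q := 3) (by decide) 3 (by norm_num)
  rw [h]
  norm_num

instance : Finite Sp := inferInstance

theorem card_PS : Nat.card PS = 4585351680 := by
  have h := Subgroup.card_eq_card_quotient_mul_card_subgroup (Subgroup.center Sp)
  rw [card_Sp, card_Z] at h
  have : (Nat.card PS) * 2 = 9170703360 := h.symm
  omega

/-- minus one -/
def zz : Sp := ⟨-1, SymplecticGroup.neg_mem (one_mem _)⟩

theorem zz_ne : zz ≠ 1 := by
  intro h
  have h1 : (-1 : M6) = 1 := congrArg Subtype.val h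
  revert h1
  decide +kernel

theorem zz_sq : zz ^ 2 = 1 := by
  apply Subtype.ext
  change (-1 : M6) ^ 2 = 1
  simp

theorem zz_center : zz ∈ Subgroup.center Sp := by
  rw [Subgroup.mem_center_iff]
  intro g
  apply Subtype.ext
  change g.1 * (-1 : M6) = (-1 : M6) * g.1
  simp

theorem mem_center (g : Sp) : g ∈ Subgroup.center Sp ↔ g = 1 ∨ g = zz := by
  constructor
  · intro hg
    by_cases h1 : g = 1
    · exact Or.inl h1
    · right
      have h2 := (Nat.card_eq_two_iff' (1 : Subgroup.center Sp)).1 card_Z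
      have h3 : (⟨g, hg⟩ : Subgroup.center Sp) = ⟨zz, zz_center⟩ := by
        refine h2.unique ?_ ?_
        · intro h; exact h1 (congrArg Subtype.val h)
        · intro h; exact zz_ne (congrArg Subtype.val h)
      exact congrArg Subtype.val h3
  · rintro (rfl | rfl)
    · exact one_mem _
    · exact zz_center

def π : Sp →* PS := QuotientGroup.mk' _

theorem π_surj : Function.Surjective π := QuotientGroup.mk'_surjective _

theorem π_eq_one (g : Sp) : π g = 1 ↔ g = 1 ∨ g = zz := by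
  rw [← mem_center]
  exact QuotientGroup.eq_one_iff g

theorem sp_pow (g : Sp) (n : ℕ) : (g ^ n).1 = g.1 ^ n := by
  induction n with
  | zero => rfl
  | succ n ih => rw [pow_succ, pow_succ, ← ih]; rfl

theorem π_pow_eq_one (g : Sp) (n : ℕ) : π g ^ n = 1 ↔ g.1 ^ n = 1 ∨ g.1 ^ n = -1 := by
  rw [← map_pow, π_eq_one]
  constructor
  · rintro (h | h)
    · left; rw [← sp_pow, h]; rfl
    · right; rw [← sp_pow, h]; rfl
  · rintro (h | h)
    · left; apply Subtype.ext; rw [sp_pow, h]; rfl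
    · right; apply Subtype.ext; rw [sp_pow, h]; rfl

theorem ord2 (g : Sp) (a b : ℕ) (ha : a.Prime) (hb : b.Prime) (h1 : g.1 ^ (a * b) = 1 ∨ g.1 ^ (a * b) = -1)
    (h2 : g.1 ^ b ≠ 1 ∧ g.1 ^ b ≠ -1) (h3 : g.1 ^ a ≠ 1 ∧ g.1 ^ a ≠ -1) : orderOf (π g) = a * b := by
  refine orderOf_eq_of_pow_and_pow_div_prime (Nat.mul_pos ha.pos hb.pos) ((π_pow_eq_one _ _).2 h1) ?_
  intro p hp hd
  rcases (Nat.Prime.dvd_mul hp).1 hd with h | h
  · rw [(Nat.prime_dvd_prime_iff_eq hp ha).1 h, Nat.mul_div_cancel_left _ ha.pos, Ne, π_pow_eq_one]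
    tauto
  · rw [(Nat.prime_dvd_prime_iff_eq hp hb).1 h, Nat.mul_div_cancel _ hb.pos, Ne, π_pow_eq_one]
    tauto

def Y7 : Sp := ⟨y7, mem_of _ c7⟩
def Y13 : Sp := ⟨y13, mem_of _ c13⟩

theorem Y7_pow : Y7 ^ 7 = 1 := by
  apply Subtype.ext; rw [sp_pow]; exact p7.1

theorem Y13_pow : Y13 ^ 13 = 1 := by
  apply Subtype.ext; rw [sp_pow]; exact p13.1

theorem Y7_ord : orderOf (π Y7) = 7 := by
  have : Fact (Nat.Prime 7) := ⟨by norm_num⟩
  refine orderOf_eq_prime ?_ ?_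
  · rw [← map_pow, Y7_pow, map_one]
  · rw [Ne, π_eq_one]
    rintro (h | h)
    · exact p7.2 (congrArg Subtype.val h)
    · have h1 : zz ^ 7 = 1 := by rw [← h]; exact Y7_pow
      have h2 : zz ^ 7 = zz := by
        rw [show (7 : ℕ) = 2 * 3 + 1 by norm_num, pow_succ, pow_mul, zz_sq, one_pow, one_mul]
      exact zz_ne (h2.symm.trans h1)

theorem Y13_ord : orderOf (π Y13) = 13 := by
  have : Fact (Nat.Prime 13) := ⟨by norm_num⟩
  refine orderOf_eq_prime ?_ ?_
  · rw [← map_pow, Y13_pow, map_one]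
  · rw [Ne, π_eq_one]
    rintro (h | h)
    · exact p13.2 (congrArg Subtype.val h)
    · have h1 : zz ^ 13 = 1 := by rw [← h]; exact Y13_pow
      have h2 : zz ^ 13 = zz := by
        rw [show (13 : ℕ) = 2 * 6 + 1 by norm_num, pow_succ, pow_mul, zz_sq, one_pow, one_mul]
      exact zz_ne (h2.symm.trans h1)

theorem conj_pow' {G : Type*} [Group G] (u y : G) (n : ℕ) : (u⁻¹ * y * u) ^ n = u⁻¹ * y ^ n * u := by
  induction n with
  | zero => simp
  | succ n ih => rw [pow_succ, ih, pow_succ]; group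

theorem lift_abs {G H : Type*} [Group G] [Group H] (p : G →* H) (z : G) (hp : ∀ g, p g = 1 → g = 1 ∨ g = z)
    (hz : z ≠ 1) (hz2 : z ^ 2 = 1) (hzc : ∀ g, Commute g z) (U Y : G) (n : ℕ) (hn : Odd n) (hY : Y ^ n = 1)
    (h : Commute (p U) (p Y)) : Commute U Y := by
  have h1 : p (U⁻¹ * Y⁻¹ * U * Y) = 1 := by
    rw [map_mul, map_mul, map_mul, map_inv, map_inv, mul_assoc, h.eq]
    group
  rcases hp _ h1 with h1 | h1
  · have : U * Y = Y * U * (U⁻¹ * Y⁻¹ * U * Y) := by group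
    rw [h1, mul_one] at this
    exact this
  · exfalso
    have h2 : U⁻¹ * Y * U = Y * z := by
      have h3 : (U⁻¹ * Y⁻¹ * U) = z * Y⁻¹ := by rw [← h1]; group
      have h4 : U⁻¹ * Y * U = (U⁻¹ * Y⁻¹ * U)⁻¹ := by group
      rw [h4, h3, _root_.mul_inv_rev, inv_inv]
      congr 1
      rw [inv_eq_iff_mul_eq_one, ← sq, hz2]
    have h5 : (U⁻¹ * Y * U) ^ n = 1 := by
      rw [conj_pow', hY, mul_one, inv_mul_cancel]
    rw [h2, (hzc Y).mul_pow, hY, one_mul] at h5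
    obtain ⟨k, rfl⟩ := hn
    rw [pow_succ, pow_mul, hz2, one_pow, one_mul] at h5
    exact hz h5

/-- lifting commuting elements -/
theorem lift_comm (U Y : Sp) (n : ℕ) (hn : Odd n) (hY : Y ^ n = 1) (h : Commute (π U) (π Y)) : Commute U Y :=
  lift_abs π zz (fun g hg => (π_eq_one g).1 hg) zz_ne zz_sq (fun g => Subgroup.mem_center_iff.1 zz_center g)
    U Y n hn hY h

theorem coe_comm {U Y : Sp} (h : Commute U Y) : Commute U.1 Y.1 := congrArg Subtype.val h.eq

/-- the main argument -/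
theorem no_cent (Y : Sp) (n m : ℕ) (hn : Odd n) (hY : Y ^ n = 1) (hfix : ∀ U : Sp, Commute U Y → U ^ m = 1)
    (s : ℕ) (hs : Nat.gcd (s * 2) m ∣ 2) (u : PS) (hu : orderOf u = s) (hc : Commute u (π Y)) : s ∣ 2 := by
  obtain ⟨U, rfl⟩ := π_surj u
  have h1 := lift_comm U Y n hn hY hc
  have h2 := hfix U h1
  have h3 : (π U) ^ s = 1 := by rw [← hu]; exact pow_orderOf_eq_one _
  rw [← map_pow, π_eq_one] at h3
  have h4 : U ^ (s * 2) = 1 := by
    rw [pow_mul]
    rcases h3 with h3 | h3 <;> rw [h3]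
    · exact one_pow 2
    · exact zz_sq
  have h5 : orderOf U ∣ 2 := (Nat.dvd_gcd (orderOf_dvd_of_pow_eq_one h4) (orderOf_dvd_of_pow_eq_one h2)).trans hs
  rw [← hu]
  exact (orderOf_map_dvd π U).trans h5

theorem fix7 (U : Sp) (hU : Commute U Y7) : U ^ 728 = 1 := by
  have h1 : U.1 ^ (3 ^ 6) = U.1 := by
    refine pow_fix y7 e7 d7 k7 U.1 (coe_comm hU) 6 ?_
    rw [show 3 ^ 6 = 7 * 104 + 1 by norm_num, pow_succ, pow_mul, p7.1, one_pow, one_mul]
  have h2 : U ^ (3 ^ 6) = U := by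
    apply Subtype.ext; rw [sp_pow]; exact h1
  rw [show 3 ^ 6 = 728 + 1 by norm_num, pow_succ] at h2
  exact mul_eq_right.1 h2

theorem fix13 (U : Sp) (hU : Commute U Y13) : U ^ 26 = 1 := by
  have h1 : U.1 ^ (3 ^ 3) = U.1 := by
    refine pow_fix y13 e13 d13 k13 U.1 (coe_comm hU) 3 ?_
    rw [show 3 ^ 3 = 13 * 2 + 1 by norm_num, pow_succ, pow_mul, p13.1, one_pow, one_mul]
  have h2 : U ^ (3 ^ 3) = U := by
    apply Subtype.ext; rw [sp_pow]; exact h1
  rw [show 3 ^ 3 = 26 + 1 by norm_num, pow_succ] at h2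
  exact mul_eq_right.1 h2

theorem two13 (U : Sp) (hU : Commute U Y13) (h2 : U ^ 2 = 1) : U = 1 ∨ U = zz := by
  obtain ⟨c, hc⟩ := cyclic y13 e13 d13 k13 U.1 (coe_comm hU)
  have h3 : U.1 = lc (c 0) (c 1) (c 2) (c 3) (c 4) (c 5) := by
    rw [hc, Fin.sum_univ_six]
    have e0 : y13 ^ ((0 : Fin 6) : ℕ) = 1 := pow_zero _
    have e1 : y13 ^ ((1 : Fin 6) : ℕ) = y13 := pow_one _
    have e2 : y13 ^ ((2 : Fin 6) : ℕ) = t2 := pw13.1
    have e3 : y13 ^ ((3 : Fin 6) : ℕ) = t3 := pw13.2.1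
    have e4 : y13 ^ ((4 : Fin 6) : ℕ) = t4 := pw13.2.2.1
    have e5 : y13 ^ ((5 : Fin 6) : ℕ) = t5 := pw13.2.2.2
    rw [e0, e1, e2, e3, e4, e5]
    have hone : ∀ i j : I6, (1 : M6) i j = if ix i = ix j then 1 else 0 := by
      have h : ∀ i j : I6, decide ((1 : M6) i j = if ix i = ix j then 1 else 0) = true := by decide +kernel
      exact fun i j => of_decide_eq_true (h i j)
    ext i j
    simp only [Matrix.add_apply, Matrix.smul_apply, smul_eq_mul, hone]
    rfl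
  have h4 := chk_ok (c 0) (c 1) (c 2) (c 3) (c 4) (c 5)
  have h5 : lc (c 0) (c 1) (c 2) (c 3) (c 4) (c 5) * lc (c 0) (c 1) (c 2) (c 3) (c 4) (c 5) = 1 := by
    rw [← h3, ← sq, ← sp_pow, h2]; rfl
  have h6 : lc (c 0) (c 1) (c 2) (c 3) (c 4) (c 5) * jj * (lc (c 0) (c 1) (c 2) (c 3) (c 4) (c 5))ᵀ = jj := by
    rw [← h3]
    have := SymplecticGroup.mem_iff.1 U.2
    rwa [jj_eq] at this
  unfold chk at h4
  rw [decide_eq_true h5, decide_eq_true h6] at h4
  simp only [Bool.not_true, Bool.false_or, Bool.and_eq_true, decide_eq_true_eq, Bool.or_eq_true] at h4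
  obtain ⟨⟨⟨⟨⟨h11, h12⟩, h13⟩, h14⟩, h15⟩, h10⟩ := h4
  rw [h11, h12, h13, h14, h15] at h3
  rcases h10 with h10 | h10 <;> rw [h10] at h3
  · left
    apply Subtype.ext
    rw [h3]
    change lc 1 0 0 0 0 0 = 1
    decide +kernel
  · right
    apply Subtype.ext
    rw [h3]
    change lc 2 0 0 0 0 0 = -1
    decide +kernel

theorem f7 : (Nat.card PS).factorization 7 = 1 :=
  PGs.factorization_one (k := 655050240) (by norm_num) card_PS (by norm_num)

theorem f13 : (Nat.card PS).factorization 13 = 1 :=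
  PGs.factorization_one (k := 352719360) (by norm_num) card_PS (by norm_num)

theorem no7 (s : ℕ) (hs0 : s ≠ 0) (hs : Nat.gcd (s * 2) 728 ∣ 2) (hs2 : ¬ s ∣ 2) (g : PS) : orderOf g ≠ 7 * s := by
  intro hg
  have : Fact (Nat.Prime 7) := ⟨by norm_num⟩
  obtain ⟨u, hu, hc⟩ := PGs.comm_of_order hs0 f7 _ Y7_ord g hg
  exact hs2 (no_cent Y7 7 728 (by decide) Y7_pow fix7 s hs u hu hc)

theorem no13 (s : ℕ) (hs0 : s ≠ 0) (hs : Nat.gcd (s * 2) 26 ∣ 2) (hs2 : ¬ s ∣ 2) (g : PS) : orderOf g ≠ 13 * s := by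
  intro hg
  have : Fact (Nat.Prime 13) := ⟨by norm_num⟩
  obtain ⟨u, hu, hc⟩ := PGs.comm_of_order hs0 f13 _ Y13_ord g hg
  exact hs2 (no_cent Y13 13 26 (by decide) Y13_pow fix13 s hs u hu hc)

theorem no26 (g : PS) : orderOf g ≠ 26 := by
  intro hg
  have : Fact (Nat.Prime 13) := ⟨by norm_num⟩
  obtain ⟨u, hu, hc⟩ := PGs.comm_of_order (s := 2) (by norm_num) f13 _ Y13_ord g (hg.trans (by norm_num))
  obtain ⟨U, rfl⟩ := π_surj u
  have h1 := lift_comm U Y13 13 (by decide) Y13_pow hc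
  have h2 := fix13 U h1
  have h3 : (π U) ^ 2 = 1 := by rw [← hu]; exact pow_orderOf_eq_one _
  rw [← map_pow, π_eq_one] at h3
  have h4 : U ^ 2 = 1 := by
    rcases h3 with h3 | h3
    · exact h3
    · exfalso
      rw [show 26 = 2 * (2 * 6 + 1) by norm_num, pow_mul, h3, pow_succ, pow_mul, zz_sq, one_pow, one_mul] at h2
      exact zz_ne h2
  have h5 : π U = 1 := (π_eq_one U).2 (two13 U h1 h4)
  rw [h5, orderOf_one] at hu
  exact absurd hu (by norm_num)

theorem has : PGs.Has PS where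
  card p hp := by
    rw [card_PS]
    constructor
    · intro hd
      have e1 : (4585351680 : ℕ) = 2 ^ 9 * (3 ^ 9 * (5 * (7 * 13))) := by norm_num
      rw [e1, Nat.Prime.dvd_mul hp, Nat.Prime.dvd_mul hp, Nat.Prime.dvd_mul hp, Nat.Prime.dvd_mul hp] at hd
      rcases hd with h | h | h | h | h
      · exact Or.inl ((Nat.prime_dvd_prime_iff_eq hp (by norm_num)).1 (hp.dvd_of_dvd_pow h))
      · exact Or.inr (Or.inl ((Nat.prime_dvd_prime_iff_eq hp (by norm_num)).1 (hp.dvd_of_dvd_pow h)))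
      · exact Or.inr (Or.inr (Or.inl ((Nat.prime_dvd_prime_iff_eq hp (by norm_num)).1 h)))
      · exact Or.inr (Or.inr (Or.inr (Or.inl ((Nat.prime_dvd_prime_iff_eq hp (by norm_num)).1 h))))
      · exact Or.inr (Or.inr (Or.inr (Or.inr ((Nat.prime_dvd_prime_iff_eq hp (by norm_num)).1 h))))
    · rintro (rfl | rfl | rfl | rfl | rfl) <;> norm_num
  e6 := ⟨_, ord2 ⟨a6, mem_of _ c6⟩ 2 3 (by norm_num) (by norm_num) (Or.inl q6.1) q6.2.1 q6.2.2⟩
  e10 := ⟨_, ord2 ⟨a10, mem_of _ c10⟩ 2 5 (by norm_num) (by norm_num) (Or.inl q10.1) q10.2.1 q10.2.2⟩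
  e14 := ⟨_, ord2 ⟨a14, mem_of _ c14⟩ 2 7 (by norm_num) (by norm_num) (Or.inr q14.1) q14.2.1 q14.2.2⟩
  e15 := ⟨_, ord2 ⟨a15, mem_of _ c15⟩ 3 5 (by norm_num) (by norm_num) (Or.inl q15.1) q15.2.1 q15.2.2⟩
  n21 := no7 3 (by norm_num) (by norm_num) (by norm_num)
  n26 := no26
  n35 := no7 5 (by norm_num) (by norm_num) (by norm_num)
  n39 := no13 3 (by norm_num) (by norm_num) (by norm_num)
  n65 := no13 5 (by norm_num) (by norm_num) (by norm_num)
  n91 := no13 7 (by norm_num) (by norm_num) (by norm_num)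

end Cfsg.Agent.H13.Sp63
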