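import Mathlib
import Cfsg.Agent.H13_PGs
import Cfsg.Agent.H13_GF8
import Cfsg.Agent.HL_SzOut

/-! `Sz(8):3` and its module in characteristic 2. -/

namespace Cfsg.Agent.H13.Sz8

open GF8 Matrix Cfsg.Agent.HL.Sz
open scoped Pointwise MatrixGroups

def e (n : ℕ) : GF := ofN n

theorem hF : Fintype.card GF = 2 ^ (2 * 1 + 1) := by rw [card_GF]; norm_num

def θ : GF →+* GF where
  toFun x := (x * x) * (x * x)
  map_one' := by decide +kernel
  map_mul' := by decide +kernel
  map_zero' := by decide +kernel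
  map_add' := by decide +kernel

theorem hθ : ∀ x, θ x = x ^ (2 ^ (1 + 1)) := by
  intro x
  change (x * x) * (x * x) = x ^ 4
  ring

theorem hT : IsTits θ where
  two := by decide +kernel
  sq x := by
    rw [sq]
    revert x
    decide +kernel

def sq1 : GF →+* GF where
  toFun x := x * x
  map_one' := by decide +kernel
  map_mul' := by decide +kernel
  map_zero' := by decide +kernel
  map_add' := by decide +kernel

def σ0 : GF ≃+* GF where
  toFun x := x * x
  invFun x := (x * x) * (x * x)
  left_inv := by decide +kernel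
  right_inv := by decide +kernel
  map_mul' := by decide +kernel
  map_add' := by decide +kernel

theorem σ0_pow : σ0 ^ 3 = 1 := by
  ext x
  change σ0 (σ0 (σ0 x)) = x
  revert x
  decide +kernel

theorem σ0_ne : σ0 ≠ 1 := by
  intro h
  have := DFunLike.congr_fun h (e 2)
  revert this
  change σ0 (e 2) ≠ e 2
  decide +kernel

theorem σ0_ord : orderOf σ0 = 3 := by
  have : Fact (Nat.Prime 3) := ⟨by norm_num⟩
  exact orderOf_eq_prime σ0_pow σ0_ne

abbrev S : Type := Cfsg.Sz GF 1
abbrev ψ : (GF ≃+* GF) →* MulAut S := fieldAut le_rfl hF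
abbrev G0 : Type := S ⋊[ψ] (GF ≃+* GF)

theorem card_S : Nat.card S = 29120 := by
  rw [card_Sz le_rfl hF]
  norm_num

instance : Finite (GF ≃+* GF) := Finite.of_injective (fun σ => (σ : GF → GF)) DFunLike.coe_injective

instance : Finite G0 := Finite.of_equiv _ SemidirectProduct.equivProd.symm

theorem card_G0 : Nat.card G0 = 87360 := by
  rw [SemidirectProduct.card, card_S, card_ringAut hF]

/-- matrix of an element -/
def mat (g : S) : Matrix (Fin 4) (Fin 4) GF := g.1.1

theorem mat_mul (g h : S) : mat (g * h) = mat g * mat h := rfl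
theorem mat_one : mat 1 = 1 := rfl

theorem mat_ψ (σ : GF ≃+* GF) (g : S) : mat (ψ σ g) = (mat g).map (σ : GF →+* GF) := rfl

theorem mat_pow (g : S) (n : ℕ) : mat (g ^ n) = mat g ^ n := by
  induction n with
  | zero => rw [pow_zero, pow_zero]; rfl
  | succ n ih => rw [pow_succ, pow_succ, mat_mul, ih]

theorem eq_one_iff (g : S) : g = 1 ↔ mat g = 1 := by
  constructor
  · rintro rfl; rfl
  · intro h
    apply Subtype.ext
    apply Subtype.ext
    exact h

/-! orders of elements of `G0` not divisible by 3 -/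

theorem right_eq_one (g : G0) (hg : (orderOf g).Coprime 3) : ∃ s : S, g = SemidirectProduct.inl s := by
  have h1 : orderOf g.right ∣ orderOf g := orderOf_map_dvd SemidirectProduct.rightHom g
  have h2 : orderOf g.right ∣ 3 := by
    have := orderOf_dvd_natCard g.right
    rwa [card_ringAut hF] at this
  have h3 : g.right = 1 := by
    rw [← orderOf_eq_one_iff]
    exact Nat.eq_one_of_dvd_coprimes hg h1 h2
  refine ⟨g.left, ?_⟩
  ext
  · rfl
  · rw [h3]; rfl

theorem order_S (s : S) (hs : s ≠ 1) : orderOf s ∣ 2 ^ 6 ∨ orderOf s ∣ 7 ∨ orderOf s ∣ 13 ∨ orderOf s ∣ 5 := by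
  obtain ⟨U, ⟨hU, hsU⟩, -⟩ := partition le_rfl hF s hs
  have h1 : orderOf s ∣ Nat.card U := Subgroup.orderOf_dvd_natCard U hsU
  rcases hU with ⟨P, rfl⟩ | ⟨-, h⟩
  · left
    have h2 := P.card_eq_multiplicity
    have h3 : (Nat.card S).factorization 2 = 6 := by
      rw [card_S]
      have e1 : (29120 : ℕ) = 2 ^ 6 * 455 := by norm_num
      rw [e1, Nat.factorization_mul (by norm_num) (by norm_num), Nat.Prime.factorization_pow (by norm_num),
        Finsupp.add_apply, Finsupp.single_eq_same, Nat.factorization_eq_zero_of_not_dvd (by norm_num)]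
    rw [h3] at h2
    rwa [h2] at h1
  · right
    norm_num at h
    rcases h with h | h | h <;> rw [h] at h1
    · exact Or.inl h1
    · exact Or.inr (Or.inl h1)
    · exact Or.inr (Or.inr h1)

theorem no_order (n : ℕ) (h3 : n.Coprime 3) (h1 : n ≠ 1) (a : ¬ n ∣ 2 ^ 6) (b : ¬ n ∣ 7) (c : ¬ n ∣ 13) (d : ¬ n ∣ 5)
    (g : G0) : orderOf g ≠ n := by
  intro hg
  obtain ⟨s, rfl⟩ := right_eq_one g (by rw [hg]; exact h3)
  rw [orderOf_injective _ SemidirectProduct.inl_injective] at hg
  have hs : s ≠ 1 := by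
    rintro rfl
    rw [orderOf_one] at hg
    exact h1 hg.symm
  have := order_S s hs
  rw [hg] at this
  tauto

/-! elements commuting with the field automorphism -/

theorem sq_fix : ∀ x : GF, σ0 x = x → x = 0 ∨ x = 1 := by decide +kernel

/-- rational ovoid points -/
def R (p : Option (GF × GF)) : Prop := ∀ i, σ0 (pv θ p i) = pv θ p i

instance : DecidablePred R := fun p => inferInstanceAs (Decidable (∀ i : Fin 4, σ0 (pv θ p i) = pv θ p i))

theorem card_R : Fintype.card {p // R p} = 5 := by decide +kernel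

theorem fixed_eq_one (u : S) (hu : ψ σ0 u = u) (n : ℕ) (hn : u ^ n = 1) (hc : n.Coprime 120) : u = 1 := by
  let _ := act hθ (F := GF) (m := 1)
  have hm : (mat u).map (σ0 : GF →+* GF) = mat u := by
    rw [← mat_ψ, hu]
  have hent : ∀ i j, σ0 (mat u i j) = mat u i j := fun i j => congrFun (congrFun hm i) j
  have hR : ∀ p, R p → R (u • p) := by
    intro p hp
    have h1 := act_spec hθ u p
    rw [smul_pt_iff] at h1
    obtain ⟨c, hc0, hc1⟩ := h1
    have h2 : ∀ i, σ0 (c * pv θ (u • p) i) = c * pv θ (u • p) i := by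
      intro i
      have h3 : c * pv θ (u • p) i = ∑ j, mat u i j * pv θ p j := (congrFun hc1 i).symm
      rw [h3, map_sum]
      exact Finset.sum_congr rfl fun j _ => by rw [map_mul, hent, hp j]
    have h3 : ∃ i, pv θ (u • p) i = 1 := by
      rcases u • p with _ | ⟨x, y⟩
      · exact ⟨0, rfl⟩
      · exact ⟨3, rfl⟩
    obtain ⟨i0, hi0⟩ := h3
    have h4 : σ0 c = c := by
      have := h2 i0
      rwa [hi0, mul_one] at this
    intro i
    have h5 := h2 i
    rw [map_mul, h4] at h5
    exact mul_left_cancel₀ hc0 h5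
  let π : Equiv.Perm (Option (GF × GF)) := MulAction.toPerm u
  have hRiff : ∀ p, R (π p) ↔ R p := by
    intro p
    constructor
    · intro h
      have h1 : ∀ k : ℕ, R ((π ^ k) (π p)) := by
        intro k
        induction k with
        | zero => exact h
        | succ k ih =>
          rw [pow_succ', Equiv.Perm.mul_apply]
          exact hR _ ih
      obtain ⟨k, hk⟩ : ∃ k : ℕ, (π ^ k) * π = 1 := by
        refine ⟨orderOf π - 1, ?_⟩
        rw [← pow_succ, Nat.sub_add_cancel (orderOf_pos π), pow_orderOf_eq_one]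
      have h2 := h1 k
      rw [← Equiv.Perm.mul_apply, hk] at h2
      exact h2
    · exact hR p
  let ρ : Equiv.Perm {p // R p} := π.subtypePerm hRiff
  have hρ : ρ = 1 := by
    have h1 : orderOf ρ ∣ n := by
      apply orderOf_dvd_of_pow_eq_one
      have e1 : π ^ n = 1 := by
        change (MulAction.toPermHom S (Option (GF × GF)) u) ^ n = 1
        rw [← map_pow, hn, map_one]
      rw [Equiv.Perm.subtypePerm_pow]
      apply Equiv.ext
      intro x
      apply Subtype.ext
      change (π ^ n) x.1 = x.1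
      rw [e1]; rfl
    have h2 : orderOf ρ ∣ 120 := by
      have := orderOf_dvd_card (x := ρ)
      rwa [Fintype.card_perm, card_R] at this
    rw [← orderOf_eq_one_iff]
    exact Nat.eq_one_of_dvd_coprimes hc h1 h2
  have hfix : ∀ p, R p → u • p = p := by
    intro p hp
    have := congrArg Subtype.val (DFunLike.congr_fun hρ ⟨p, hp⟩)
    exact this
  have hfix' : ∀ p, R p → u.1 • pt θ p = pt θ p := by
    intro p hp
    rw [act_spec hθ u p, hfix p hp]
  apply Subtype.ext
  exact three_pts le_rfl hF hT hθ u.1 u.2 none (some (0, 0)) (some (0, 1)) (by decide +kernel) (by decide +kernel)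
    (by decide +kernel) (hfix' _ (by decide +kernel)) (hfix' _ (by decide +kernel)) (hfix' _ (by decide +kernel))

theorem inr_ord : orderOf (SemidirectProduct.inr σ0 : G0) = 3 := by
  rw [orderOf_injective _ SemidirectProduct.inr_injective, σ0_ord]

theorem no3 (s : ℕ) (hs0 : s ≠ 0) (hs1 : s ≠ 1) (hs3 : s.Coprime 3) (hs : s.Coprime 120) (g : G0) :
    orderOf g ≠ 3 * s := by
  intro hg
  have : Fact (Nat.Prime 3) := ⟨by norm_num⟩
  obtain ⟨u, hu, hc⟩ := PGs.comm_of_order hs0 (p := 3)
    (PGs.factorization_one (k := 29120) (by norm_num) card_G0 (by norm_num)) _ inr_ord g hg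
  obtain ⟨u, rfl⟩ := right_eq_one u (by rw [hu]; exact hs3)
  rw [orderOf_injective _ SemidirectProduct.inl_injective] at hu
  have h1 : ψ σ0 u = u := by
    have h2 := congrArg SemidirectProduct.left hc.eq
    rw [SemidirectProduct.mul_left, SemidirectProduct.mul_left] at h2
    simpa using h2.symm
  have h2 := fixed_eq_one u h1 s (by rw [← hu]; exact pow_orderOf_eq_one u) hs
  rw [h2, orderOf_one] at hu
  exact hs1 hu.symm

/-! special elements -/

theorem W_mem' : W GF ∈ Cfsg.Sz GF 1 := W_mem hT hθ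
def w0 : S := ⟨W GF, W_mem'⟩
def g5 : S := ⟨U θ 0 1, U_mem hT hθ 0 1⟩ * w0
def g13 : S := ⟨U θ 0 (e 3), U_mem hT hθ 0 (e 3)⟩ * w0
def g7 : S := ⟨U θ 0 (e 2), U_mem hT hθ 0 (e 2)⟩ * w0

theorem w0_ord : orderOf w0 = 2 := by
  have : Fact (Nat.Prime 2) := ⟨by norm_num⟩
  refine orderOf_eq_prime ?_ ?_
  · rw [eq_one_iff, mat_pow]
    change (Wmat GF) ^ 2 = 1
    decide +kernel
  · rw [Ne, eq_one_iff]
    change (Wmat GF) ≠ 1
    decide +kernel

theorem g5_ord : orderOf g5 = 5 := by
  have : Fact (Nat.Prime 5) := ⟨by norm_num⟩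
  refine orderOf_eq_prime ?_ ?_
  · rw [eq_one_iff, mat_pow]
    change (Umat θ 0 1 * Wmat GF) ^ 5 = 1
    decide +kernel
  · rw [Ne, eq_one_iff]
    change (Umat θ 0 1 * Wmat GF) ≠ 1
    decide +kernel

theorem g13_ord : orderOf g13 = 13 := by
  have : Fact (Nat.Prime 13) := ⟨by norm_num⟩
  refine orderOf_eq_prime ?_ ?_
  · rw [eq_one_iff, mat_pow]
    change (Umat θ 0 (e 3) * Wmat GF) ^ 13 = 1
    decide +kernel
  · rw [Ne, eq_one_iff]
    change (Umat θ 0 (e 3) * Wmat GF) ≠ 1
    decide +kernel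

theorem g7_ord : orderOf g7 = 7 := by
  have : Fact (Nat.Prime 7) := ⟨by norm_num⟩
  refine orderOf_eq_prime ?_ ?_
  · rw [eq_one_iff, mat_pow]
    change (Umat θ 0 (e 2) * Wmat GF) ^ 7 = 1
    decide +kernel
  · rw [Ne, eq_one_iff]
    change (Umat θ 0 (e 2) * Wmat GF) ≠ 1
    decide +kernel

end Cfsg.Agent.H13.Sz8
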