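import Mathlib
import Cfsg.Agent.H13_Sz8

/-! `Sz(8):3` and its module in characteristic 2. -/

namespace Cfsg.Agent.H13.Sz8

open GF8 Matrix Cfsg.Agent.HL.Sz
open scoped Pointwise MatrixGroups

abbrev M4 : Type := Matrix (Fin 4) (Fin 4) GF

theorem mat_inj {g h : S} (H : mat g = mat h) : g = h := Subtype.ext (Subtype.ext H)

def actM (g : G0) (M : M4) : M4 :=
  mat g.left * M.map (g.right : GF →+* GF) * ((mat g.left).map sq1)ᵀ

theorem actM_one (M : M4) : actM 1 M = M := by
  have h1 : (M.map ((1 : GF ≃+* GF) : GF →+* GF)) = M := rfl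
  change (1 : M4) * (M.map ((1 : GF ≃+* GF) : GF →+* GF)) * ((1 : M4).map sq1)ᵀ = M
  rw [h1, one_mul, Matrix.map_one _ (map_zero _) (map_one _), transpose_one, mul_one]

theorem sq1_comm (τ : GF ≃+* GF) (B : M4) :
    (B.map (τ : GF →+* GF)).map sq1 = (B.map sq1).map (τ : GF →+* GF) := by
  ext i j
  change (τ (B i j)) * (τ (B i j)) = τ (B i j * B i j)
  rw [map_mul]

theorem actM_mul (g h : G0) (M : M4) : actM (g * h) M = actM g (actM h M) := by
  have h1 : mat (g * h).left = mat g.left * (mat h.left).map (g.right : GF →+* GF) := rfl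
  have h2 : M.map (((g * h).right : GF ≃+* GF) : GF →+* GF) =
      (M.map (h.right : GF →+* GF)).map (g.right : GF →+* GF) := rfl
  unfold actM
  rw [h1, h2, Matrix.map_mul, transpose_mul, sq1_comm, Matrix.map_mul, Matrix.map_mul, transpose_map]
  simp only [mul_assoc]

theorem actM_add (g : G0) (M M' : M4) : actM g (M + M') = actM g M + actM g M' := by
  unfold actM
  rw [Matrix.map_add _ (map_add _), mul_add, add_mul]

abbrev N : Type := Multiplicative M4

def φ : G0 →* MulAut N :=
  MonoidHom.mk' (fun g =>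
    { toFun := fun x => Multiplicative.ofAdd (actM g (Multiplicative.toAdd x))
      invFun := fun x => Multiplicative.ofAdd (actM g⁻¹ (Multiplicative.toAdd x))
      left_inv := by
        intro x
        apply Multiplicative.toAdd.injective
        change actM g⁻¹ (actM g (Multiplicative.toAdd x)) = Multiplicative.toAdd x
        rw [← actM_mul, inv_mul_cancel, actM_one]
      right_inv := by
        intro x
        apply Multiplicative.toAdd.injective
        change actM g (actM g⁻¹ (Multiplicative.toAdd x)) = Multiplicative.toAdd x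
        rw [← actM_mul, mul_inv_cancel, actM_one]
      map_mul' := by
        intro x y
        apply Multiplicative.toAdd.injective
        exact actM_add g (Multiplicative.toAdd x) (Multiplicative.toAdd y) }) (by
    intro a b
    refine MulEquiv.ext fun x => ?_
    apply Multiplicative.toAdd.injective
    exact actM_mul a b (Multiplicative.toAdd x))

theorem φ_apply (g : G0) (x : N) : Multiplicative.toAdd (φ g x) = actM g (Multiplicative.toAdd x) := rfl

theorem actM_inl (s : S) (M : M4) : actM (SemidirectProduct.inl s) M = mat s * M * ((mat s).map sq1)ᵀ := rfl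

/-! fixed points of elements of order 13 -/

def c13 (a b c d : Fin 4) : GF := ∑ i : Fin 13, (mat g13 ^ (i : ℕ)) a b * sq1 ((mat g13 ^ (i : ℕ)) c d)

theorem c13_zero : ∀ a b c d, c13 a b c d = 0 := by
  have h : ∀ a b c d : Fin 4, ∑ i : Fin 13, ((Umat θ 0 (e 3) * Wmat GF) ^ (i : ℕ)) a b *
    sq1 (((Umat θ 0 (e 3) * Wmat GF) ^ (i : ℕ)) c d) = 0 := by decide +kernel
  exact h

theorem char2 : ∀ a : GF, a + a = 0 := by decide +kernel

theorem fix13 (M : M4) (h : actM (SemidirectProduct.inl g13) M = M) : M = 0 := by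
  have h1 : ∀ i : ℕ, mat g13 ^ i * M * ((mat g13 ^ i).map sq1)ᵀ = M := by
    intro i
    induction i with
    | zero => rw [pow_zero, Matrix.map_one _ (map_zero _) (map_one _), one_mul, transpose_one, mul_one]
    | succ i ih =>
      rw [pow_succ', Matrix.map_mul, transpose_mul]
      calc mat g13 * mat g13 ^ i * M * (((mat g13 ^ i).map sq1)ᵀ * ((mat g13).map sq1)ᵀ)
          = mat g13 * (mat g13 ^ i * M * ((mat g13 ^ i).map sq1)ᵀ) * ((mat g13).map sq1)ᵀ := by
            simp only [mul_assoc]
        _ = M := by rw [ih]; exact h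
  have h2 : ∑ i : Fin 13, (mat g13 ^ (i : ℕ) * M * ((mat g13 ^ (i : ℕ)).map sq1)ᵀ) = M := by
    rw [Finset.sum_congr rfl (fun (i : Fin 13) _ => h1 (i : ℕ)), Finset.sum_const, Finset.card_univ, Fintype.card_fin]
    ext a b
    change (13 : ℕ) • M a b = M a b
    have h3 : ∀ x : GF, (13 : ℕ) • x = x := by decide +kernel
    exact h3 _
  rw [← h2]
  ext a c
  rw [Matrix.sum_apply, Matrix.zero_apply]
  have h3 : ∀ i : Fin 13, (mat g13 ^ (i : ℕ) * M * ((mat g13 ^ (i : ℕ)).map sq1)ᵀ) a c =
      ∑ d, ∑ b, M b d * ((mat g13 ^ (i : ℕ)) a b * sq1 ((mat g13 ^ (i : ℕ)) c d)) := by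
    intro i
    rw [Matrix.mul_apply]
    refine Finset.sum_congr rfl fun d _ => ?_
    rw [Matrix.mul_apply, Finset.sum_mul]
    refine Finset.sum_congr rfl fun b _ => ?_
    rw [transpose_apply, map_apply]
    ring
  rw [Finset.sum_congr rfl fun i _ => h3 i, Finset.sum_comm]
  refine Finset.sum_eq_zero fun d _ => ?_
  rw [Finset.sum_comm]
  refine Finset.sum_eq_zero fun b _ => ?_
  rw [← Finset.mul_sum]
  have := c13_zero a b c d
  unfold c13 at this
  rw [this, mul_zero]

theorem card_fact13 : (Nat.card G0).factorization 13 = 1 :=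
  PGs.factorization_one (k := 6720) (by norm_num) card_G0 (by norm_num)

theorem fix13' (y : G0) (hy : orderOf y = 13) (x : N) (hx : φ y x = x) : x = 1 := by
  have : Fact (Nat.Prime 13) := ⟨by norm_num⟩
  have h0 : orderOf (SemidirectProduct.inl g13 : G0) = 13 := by
    rw [orderOf_injective _ SemidirectProduct.inl_injective, g13_ord]
  obtain ⟨z, n, hz⟩ := PGs.sylow_conj card_fact13 y _ hy h0
  have h3 : φ (y ^ n) x = x := by
    rw [map_zpow]
    have : φ y ∈ MulAction.stabilizer (MulAut N) x := hx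
    exact Subgroup.zpow_mem _ this n
  have h4 : φ (SemidirectProduct.inl g13) (φ z⁻¹ x) = φ z⁻¹ x := by
    have h5 : SemidirectProduct.inl g13 * z⁻¹ = z⁻¹ * y ^ n := by rw [hz]; group
    rw [← MulAut.mul_apply, ← map_mul, h5, map_mul, MulAut.mul_apply, h3]
  have h5 : φ z⁻¹ x = 1 := by
    apply Multiplicative.toAdd.injective
    exact fix13 _ (congrArg Multiplicative.toAdd h4)
  have h6 : x = φ z (φ z⁻¹ x) := by
    rw [← MulAut.mul_apply, ← map_mul, mul_inv_cancel, map_one]; rfl
  rw [h6, h5, map_one]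

/-! fixed points of elements of order 5 and 7 -/

def f7 : M4 := !![0, 0, e 6, e 2; 0, 0, e 5, e 3; e 3, e 5, 0, 0; e 2, e 6, 0, 0]

theorem fix7 : actM (SemidirectProduct.inl g7) f7 = f7 := by
  rw [actM_inl]
  change (Umat θ 0 (e 2) * Wmat GF) * f7 * ((Umat θ 0 (e 2) * Wmat GF).map sq1)ᵀ = f7
  decide +kernel

theorem fix5 : actM (SemidirectProduct.inl g5) (Wmat GF) = Wmat GF := by
  rw [actM_inl]
  change (Umat θ 0 1 * Wmat GF) * Wmat GF * ((Umat θ 0 1 * Wmat GF).map sq1)ᵀ = Wmat GF
  decide +kernel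

theorem w0_fix : ψ σ0 w0 = w0 := by
  apply mat_inj
  change (Wmat GF).map (σ0 : GF →+* GF) = Wmat GF
  decide +kernel

theorem g5_fix : ψ σ0 g5 = g5 := by
  apply mat_inj
  change (Umat θ 0 1 * Wmat GF).map (σ0 : GF →+* GF) = Umat θ 0 1 * Wmat GF
  decide +kernel

theorem comm_ord (s : S) (hs : ψ σ0 s = s) (n : ℕ) (hn : orderOf s = n) (hc : n.Coprime 3) :
    ∃ g : G0, orderOf g = n * 3 := by
  have hcm : Commute (SemidirectProduct.inl s : G0) (SemidirectProduct.inr σ0) := by
    change SemidirectProduct.inl s * SemidirectProduct.inr σ0 = SemidirectProduct.inr σ0 * SemidirectProduct.inl s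
    ext1
    · simp [hs]
    · simp
  refine ⟨SemidirectProduct.inl s * SemidirectProduct.inr σ0, ?_⟩
  have o1 : orderOf (SemidirectProduct.inl s : G0) = n := by
    rw [orderOf_injective _ SemidirectProduct.inl_injective, hn]
  rw [hcm.orderOf_mul_eq_mul_orderOf_of_coprime (by rw [o1, inr_ord]; exact hc), o1, inr_ord]

theorem two_tor (x : N) : x ^ 2 = 1 := by
  apply Multiplicative.toAdd.injective
  change (2 : ℕ) • Multiplicative.toAdd x = 0
  ext i j
  have h : ∀ a : GF, (2 : ℕ) • a = 0 := by decide +kernel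
  exact h _

instance : Finite N := inferInstanceAs (Finite M4)

theorem has (k : ℕ) [NeZero k] : PGs.Has ((Fin k → N) ⋊[PGr.powAct φ k] G0) := by
  refine PGs.has_pow k φ two_tor ?_ ?_ ?_ ?_ ?_ ?_ ?_ fix13' ?_ ?_ ?_ ?_
  · intro p hp
    rw [card_G0]
    constructor
    · intro hd
      have e1 : (87360 : ℕ) = 2 ^ 6 * (3 * (5 * (7 * 13))) := by norm_num
      rw [e1, Nat.Prime.dvd_mul hp, Nat.Prime.dvd_mul hp, Nat.Prime.dvd_mul hp, Nat.Prime.dvd_mul hp] at hd
      rcases hd with h | h | h | h | h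
      · exact Or.inl ((Nat.prime_dvd_prime_iff_eq hp (by norm_num)).1 (hp.dvd_of_dvd_pow h))
      · exact Or.inr (Or.inl ((Nat.prime_dvd_prime_iff_eq hp (by norm_num)).1 h))
      · exact Or.inr (Or.inr (Or.inl ((Nat.prime_dvd_prime_iff_eq hp (by norm_num)).1 h)))
      · exact Or.inr (Or.inr (Or.inr (Or.inl ((Nat.prime_dvd_prime_iff_eq hp (by norm_num)).1 h))))
      · exact Or.inr (Or.inr (Or.inr (Or.inr ((Nat.prime_dvd_prime_iff_eq hp (by norm_num)).1 h))))
    · rintro (rfl | rfl | rfl | rfl | rfl) <;> norm_num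
  · exact comm_ord w0 w0_fix 2 w0_ord (by norm_num)
  · exact comm_ord g5 g5_fix 5 g5_ord (by norm_num)
  · refine ⟨SemidirectProduct.inl g5, Multiplicative.ofAdd (Wmat GF), ?_, ?_, ?_⟩
    · rw [orderOf_injective _ SemidirectProduct.inl_injective, g5_ord]
    · apply Multiplicative.toAdd.injective
      exact fix5
    · intro h
      have h1 : Wmat GF = 0 := congrArg Multiplicative.toAdd h
      revert h1
      decide +kernel
  · refine ⟨SemidirectProduct.inl g7, Multiplicative.ofAdd f7, ?_, ?_, ?_⟩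
    · rw [orderOf_injective _ SemidirectProduct.inl_injective, g7_ord]
    · apply Multiplicative.toAdd.injective
      exact fix7
    · intro h
      have h1 : f7 = 0 := congrArg Multiplicative.toAdd h
      revert h1
      decide +kernel
  · exact no3 7 (by norm_num) (by norm_num) (by norm_num) (by norm_num)
  · exact no_order 26 (by norm_num) (by norm_num) (by norm_num) (by norm_num) (by norm_num) (by norm_num)
  · exact no_order 35 (by norm_num) (by norm_num) (by norm_num) (by norm_num) (by norm_num) (by norm_num)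
  · exact no3 13 (by norm_num) (by norm_num) (by norm_num) (by norm_num)
  · exact no_order 65 (by norm_num) (by norm_num) (by norm_num) (by norm_num) (by norm_num) (by norm_num)
  · exact no_order 91 (by norm_num) (by norm_num) (by norm_num) (by norm_num) (by norm_num) (by norm_num)

theorem exists_big (M : ℕ) : ∃ (H : Type) (_ : Group H) (_ : Finite H), M < Nat.card H ∧ PGs.Has H := by
  refine ⟨(Fin (M + 1) → N) ⋊[PGr.powAct φ (M + 1)] G0, inferInstance, ?_, ?_, has (M + 1)⟩
  · exact Finite.of_equiv _ SemidirectProduct.equivProd.symm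
  · rw [SemidirectProduct.card, Nat.card_fun, Nat.card_eq_fintype_card (α := Fin (M + 1)), Fintype.card_fin]
    have h1 : 2 ≤ Nat.card N := Finite.one_lt_card
    have h2 : 0 < Nat.card G0 := Nat.card_pos
    calc M < 2 ^ M := Nat.lt_two_pow_self
      _ ≤ 2 ^ (M + 1) := Nat.pow_le_pow_right (by norm_num) (by omega)
      _ ≤ Nat.card N ^ (M + 1) := Nat.pow_le_pow_left h1 (M + 1)
      _ ≤ Nat.card N ^ (M + 1) * Nat.card G0 := Nat.le_mul_of_pos_right _ h2

end Cfsg.Agent.H13.Sz8
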