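import Mathlib
import Cfsg.Agent.H13_Sp63b
import Cfsg.Agent.H13_Sz8b

/-! `PSp_6(3)`: unbounded families with the same prime graph. -/

namespace Cfsg.Agent.H13.Sp63

open Matrix

/-- change of field -/
def mapSp {F F' : Type*} [Field F] [Field F'] (σ : F ≃+* F') (n : ℕ) :
    symplecticGroup (Fin n) F ≃* symplecticGroup (Fin n) F' where
  toFun g := ⟨g.1.map σ, SymplecticGroup.map_mem g.2 σ⟩
  invFun g := ⟨g.1.map σ.symm, SymplecticGroup.map_mem g.2 σ.symm⟩
  left_inv g := by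
    apply Subtype.ext
    ext i j
    change σ.symm (σ (g.1 i j)) = g.1 i j
    simp
  right_inv g := by
    apply Subtype.ext
    ext i j
    change σ (σ.symm (g.1 i j)) = g.1 i j
    simp
  map_mul' a b := by
    apply Subtype.ext
    change (a.1 * b.1).map σ = a.1.map σ * b.1.map σ
    rw [Matrix.map_mul]

theorem map_center' {G H : Type*} [Group G] [Group H] (e : G ≃* H) :
    (Subgroup.center G).map (e : G →* H) = Subgroup.center H := by
  ext x
  constructor
  · rintro ⟨y, hy, rfl⟩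
    rw [Subgroup.mem_center_iff]
    intro g
    obtain ⟨g', rfl⟩ := e.surjective g
    have := (Subgroup.mem_center_iff.1 hy) g'
    change e g' * e y = e y * e g'
    rw [← map_mul, ← map_mul, this]
  · intro hx
    refine ⟨e.symm x, ?_, e.apply_symm_apply x⟩
    change e.symm x ∈ Subgroup.center G
    rw [Subgroup.mem_center_iff]
    intro g
    apply e.injective
    rw [map_mul, map_mul, e.apply_symm_apply]
    exact (Subgroup.mem_center_iff.1 hx) (e g)

noncomputable def mapPSp {F F' : Type*} [Field F] [Field F'] (σ : F ≃+* F') (n : ℕ) : Cfsg.PSp n F ≃* Cfsg.PSp n F' :=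
  QuotientGroup.congr _ _ (mapSp σ n) (map_center' _)

theorem final {F : Type*} [Field F] [Fintype F] (hF : Fintype.card F = 3) (N : ℕ) :
    ∃ (H : Type) (_ : Group H) (_ : Finite H), N < Nat.card H ∧
      ((∀ p : ℕ, p.Prime → (p ∣ Nat.card (Cfsg.PSp 3 F) ↔ p ∣ Nat.card H)) ∧
      (∀ p q : ℕ, p.Prime → q.Prime → p ≠ q → ((∃ g : (Cfsg.PSp 3 F), orderOf g = p * q) ↔ (∃ g : H, orderOf g = p * q)))) := by
  let σ : F ≃+* K := FiniteField.ringEquivOfCardEq (by rw [hF]; rfl)
  let eq1 : Cfsg.PSp 3 F ≃* PS := mapPSp σ 3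
  obtain ⟨H, i1, i2, h1, h2⟩ := Sz8.exists_big N
  obtain ⟨h3, h4⟩ := PGs.same has h2
  refine ⟨H, i1, i2, h1, ?_, ?_⟩
  · intro p hp
    rw [Nat.card_congr eq1.toEquiv]
    exact h3 p hp
  · intro p q hp hq hpq
    rw [← h4 p q hp hq hpq]
    constructor
    · rintro ⟨g, hg⟩
      exact ⟨eq1 g, by rw [MulEquiv.orderOf_eq, hg]⟩
    · rintro ⟨g, hg⟩
      exact ⟨eq1.symm g, by rw [MulEquiv.orderOf_eq, hg]⟩

end Cfsg.Agent.H13.Sp63
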