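import Cfsg.Agent.H13_Sec3
import Cfsg.Agent.H1_Coprime2

/-!
Two fixed point subgroups generating: they commute.
-/

set_option autoImplicit false

namespace Cfsg.Agent.H13.Two

open Subgroup Cfsg.Agent.H13.Syl Cfsg.Agent.H13
open scoped commutatorElement

universe u

variable {S : Type u} [Group S] [Finite S] {P Q X₁ X₂ : Subgroup S} [hPn : P.Normal]

theorem half (hQc : IsMulCommutative Q) (hcop : (Nat.card Q).Coprime (Nat.card P)) (hS : P ⊔ Q = ⊤)
    (h₁ : X₁ ≤ Q) (h₂ : X₂ ≤ Q) (hX : X₁ ⊔ X₂ = Q) (hCQ : P ⊓ centralizer (Q : Set S) = ⊥)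
    (hgen : ∀ K ≤ P, Q ≤ normalizer (K : Set S) → K ≤ (K ⊓ centralizer (X₁ : Set S)) ⊔ (K ⊓ centralizer (X₂ : Set S)))
    {K : Subgroup S} (hK : K = normalClosure ((⁅P ⊓ centralizer (X₁ : Set S), P ⊓ centralizer (X₂ : Set S)⁆ : Subgroup S) : Set S)) :
    K ≤ ⁅K, P⁆ ⊔ (K ⊓ centralizer (X₂ : Set S)) := by
  have hKn : K.Normal := hK ▸ normalClosure_normal
  have hKP : K ≤ P := by
    rw [hK]
    apply normalClosure_le_normal
    exact (commutator_mono inf_le_left inf_le_left).trans (commutator_le_left P P)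
  have hQQ : ∀ x ∈ Q, ∀ y ∈ Q, x * y = y * x := fun x hx y hy =>
    congrArg Subtype.val (hQc.is_comm.comm (⟨x, hx⟩ : Q) ⟨y, hy⟩)
  set N := ⁅K, P⁆ with hN
  have hNn : N.Normal := inferInstance
  have hNK : N ≤ K := commutator_le_left K P
  set K₂ := N ⊔ (K ⊓ centralizer (X₂ : Set S)) with hK₂
  have hQC2 : Q ≤ centralizer (X₂ : Set S) := by
    intro y hy
    rw [mem_centralizer_iff]
    intro x hx
    exact hQQ x (h₂ hx) y hy
  have hK₂K : K₂ ≤ K := sup_le hNK inf_le_left
  have hK₂n : K₂.Normal := by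
    rw [← normalizer_eq_top_iff, eq_top_iff, ← hS, sup_le_iff]
    constructor
    · intro x hx
      rw [mem_normalizer_iff_cj]
      apply Subgroup.eq_of_le_of_card_ge _ (by rw [card_cj])
      rw [cj_le_iff_forall]
      intro k hk
      have h1 : ⁅x, k⁆ ∈ N := by
        rw [hN, commutator_comm]
        exact commutator_mem_commutator hx (hK₂K hk)
      have e : x * k * x⁻¹ = ⁅x, k⁆ * k := by rw [commutatorElement_def]; group
      rw [e]
      exact mul_mem (mem_sup_left h1) hk
    · have h1 : Q ≤ normalizer ((K ⊓ centralizer (X₂ : Set S) : Subgroup S) : Set S) := by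
        refine le_trans (le_inf ?_ (hQC2.trans le_normalizer)) inf_normalizer_le_normalizer_inf
        rw [normalizer_eq_top K]; exact le_top
      intro x hx
      rw [mem_normalizer_iff_cj, hK₂, cj_sup, cj_eq_of_normal x N, cj_eq_of_mem_normalizer (h1 hx)]
  obtain ⟨π, hπs, hker⟩ : ∃ π : S →* S ⧸ K₂, Function.Surjective π ∧ ∀ x, π x = 1 ↔ x ∈ K₂ :=
    ⟨QuotientGroup.mk' K₂, QuotientGroup.mk'_surjective K₂, fun x => QuotientGroup.eq_one_iff x⟩
  -- X₁ acts trivially on K / K₂
  have htriv : ∀ v ∈ K, ∀ x ∈ X₁, π x * π v = π v * π x := by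
    have h1 : K ≤ (centralizer ((X₁.map π : Subgroup (S ⧸ K₂)) : Set (S ⧸ K₂))).comap π := by
      refine (hgen K hKP (by rw [normalizer_eq_top K]; exact le_top)).trans (sup_le ?_ ?_)
      · intro v hv
        rw [mem_comap, mem_centralizer_iff]
        rintro _ ⟨x, hx, rfl⟩
        rw [← map_mul, ← map_mul, mem_centralizer_iff.1 (Subgroup.mem_inf.1 hv).2 x hx]
      · intro v hv
        rw [mem_comap, (hker v).2 (mem_sup_right hv)]
        exact one_mem _
    intro v hv x hx
    exact mem_centralizer_iff.1 (h1 hv) (π x) (mem_map_of_mem π hx)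
  have hcentral : ∀ v ∈ K, ∀ y ∈ P, π y * π v = π v * π y := by
    intro v hv y hy
    have h1 : ⁅y, v⁆ ∈ K₂ := by
      apply mem_sup_left
      rw [hN, commutator_comm]
      exact commutator_mem_commutator hy hv
    have h2 := (hker _).2 h1
    rw [map_commutatorElement, commutatorElement_eq_one_iff_mul_comm] at h2
    exact h2
  have hcomm : ⁅P ⊓ centralizer (X₁ : Set S), P ⊓ centralizer (X₂ : Set S)⁆ ≤ K₂ := by
    rw [commutator_le]
    intro a ha b hb
    obtain ⟨haP, haC⟩ := Subgroup.mem_inf.1 ha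
    -- P₂ = [P₂, X₁]
    have hP₂n : X₁ ≤ normalizer ((P ⊓ centralizer (X₂ : Set S) : Subgroup S) : Set S) := by
      refine le_trans (le_inf ?_ ((h₁.trans hQC2).trans le_normalizer)) inf_normalizer_le_normalizer_inf
      rw [normalizer_eq_top P]; exact le_top
    have hcop' : (Nat.card X₁).Coprime (Nat.card (P ⊓ centralizer (X₂ : Set S) : Subgroup S)) :=
      Nat.Coprime.coprime_dvd_left (card_dvd_of_le h₁) (Nat.Coprime.coprime_dvd_right (card_dvd_of_le inf_le_left) hcop)
    have hX₁s : Group.IsSolvable X₁ := by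
      have : IsMulCommutative X₁ := ⟨⟨fun x y => Subtype.ext (hQQ x (h₁ x.2) y (h₁ y.2))⟩⟩
      exact Group.isSolvable_of_comm mul_comm'
    have hsup := H1.Coprime.commutator_sup_centralizer X₁ (P ⊓ centralizer (X₂ : Set S)) hP₂n hcop' (Or.inl hX₁s)
    have hbot : (P ⊓ centralizer (X₂ : Set S)) ⊓ centralizer (X₁ : Set S) = ⊥ := by
      rw [eq_bot_iff, ← hCQ, inf_assoc]
      refine inf_le_inf_left _ ?_
      rw [le_centralizer_iff, ← hX, sup_le_iff]
      constructor
      · rw [← le_centralizer_iff]; exact inf_le_right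
      · rw [← le_centralizer_iff]; exact inf_le_left
    rw [hbot, sup_bot_eq] at hsup
    have hkey : ⁅P ⊓ centralizer (X₂ : Set S), X₁⁆ ≤ (centralizer ({π a} : Set (S ⧸ K₂))).comap π := by
      rw [commutator_le]
      intro c hc x hx
      obtain ⟨hcP, hcC⟩ := Subgroup.mem_inf.1 hc
      rw [mem_comap, mem_centralizer_singleton_iff]
      have hcx : x * c * x⁻¹ ∈ P := hPn.conj_mem c hcP x
      -- z = [a,c]
      have hzK : ⁅a, c⁆ ∈ K := by
        rw [hK]
        exact subset_normalClosure (commutator_mem_commutator ha hc)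
      have hax : x * a = a * x := mem_centralizer_iff.1 haC x hx
      have hz1 := htriv _ hzK x hx
      have e1 : x * ⁅a, c⁆ * x⁻¹ = ⁅a, x * c * x⁻¹⁆ := by
        have hax' : x * a * x⁻¹ = a := by rw [hax]; group
        have hax2 : x * a⁻¹ * x⁻¹ = a⁻¹ := by
          have := congrArg (·⁻¹) hax'
          simpa [mul_assoc] using this
        rw [commutatorElement_def, commutatorElement_def]
        calc x * (a * c * a⁻¹ * c⁻¹) * x⁻¹ = (x * a * x⁻¹) * (x * c * x⁻¹) * (x * a⁻¹ * x⁻¹) * (x * c * x⁻¹)⁻¹ := by group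
          _ = _ := by rw [hax', hax2]
      have e2 : π ⁅a, x * c * x⁻¹⁆ = π ⁅a, c⁆ := by
        rw [← e1, map_mul, map_mul, map_inv, hz1]; group
      have hc1 := hcentral _ hzK c hcP
      have hc2 := hcentral _ hzK (x * c * x⁻¹) hcx
      set z := π ⁅a, c⁆ with hz
      have f1 : π a * π c = z * π c * π a := by
        rw [hz, commutatorElement_def, map_mul, map_mul, map_mul, map_inv, map_inv]; group
      have f2 : π a * π (x * c * x⁻¹) = z * π (x * c * x⁻¹) * π a := by
        rw [← e2, commutatorElement_def, map_mul (π) (a * (x * c * x⁻¹) * a⁻¹), map_mul π (a * (x * c * x⁻¹)),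
          map_mul π a, map_inv, map_inv]; group
      have e3 : π ⁅c, x⁆ = π c * (π (x * c * x⁻¹))⁻¹ := by
        rw [← map_inv, ← map_mul]
        congr 1
        rw [commutatorElement_def]; group
      rw [e3]
      -- goal: π c * (..)⁻¹ * π a = π a * (π c * (..)⁻¹)
      set y := π (x * c * x⁻¹) with hy
      have f3 : y⁻¹ * π a = z⁻¹⁻¹ * (π a * y⁻¹) := by
        have : π a * y = z * y * π a := f2
        have h5 : y⁻¹ * z * y = z := by rw [mul_assoc, ← hc2]; group
        rw [inv_inv]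
        calc y⁻¹ * π a = y⁻¹ * (π a * y) * y⁻¹ := by group
          _ = y⁻¹ * (z * y * π a) * y⁻¹ := by rw [this]
          _ = (y⁻¹ * z * y) * (π a * y⁻¹) := by group
          _ = z * (π a * y⁻¹) := by rw [h5]
      rw [inv_inv] at f3
      calc π c * y⁻¹ * π a = π c * (y⁻¹ * π a) := by group
        _ = π c * (z * (π a * y⁻¹)) := by rw [f3]
        _ = (π c * z) * π a * y⁻¹ := by group
        _ = (z * π c * π a) * y⁻¹ := by rw [hc1]
        _ = (π a * π c) * y⁻¹ := by rw [f1]
        _ = π a * (π c * y⁻¹) := by group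
    have hb2 : b ∈ (centralizer ({π a} : Set (S ⧸ K₂))).comap π := hkey (by rw [hsup]; exact hb)
    rw [mem_comap, mem_centralizer_singleton_iff] at hb2
    rw [← hker, map_commutatorElement, commutatorElement_eq_one_iff_mul_comm]
    exact hb2.symm
  nth_rewrite 1 [hK]
  exact normalClosure_le_normal hcomm

theorem comm_eq_bot (hPnil : Group.IsNilpotent P) (hQc : IsMulCommutative Q) (hcop : (Nat.card Q).Coprime (Nat.card P)) (hS : P ⊔ Q = ⊤)
    (h₁ : X₁ ≤ Q) (h₂ : X₂ ≤ Q) (hX : X₁ ⊔ X₂ = Q) (hCQ : P ⊓ centralizer (Q : Set S) = ⊥)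
    (hgen : ∀ K ≤ P, Q ≤ normalizer (K : Set S) → K ≤ (K ⊓ centralizer (X₁ : Set S)) ⊔ (K ⊓ centralizer (X₂ : Set S))) :
    ⁅P ⊓ centralizer (X₁ : Set S), P ⊓ centralizer (X₂ : Set S)⁆ = ⊥ := by
  set K := normalClosure ((⁅P ⊓ centralizer (X₁ : Set S), P ⊓ centralizer (X₂ : Set S)⁆ : Subgroup S) : Set S) with hK
  have hKn : K.Normal := normalClosure_normal
  have hKP : K ≤ P := by
    rw [hK]
    apply normalClosure_le_normal
    exact (commutator_mono inf_le_left inf_le_left).trans (commutator_le_left P P)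
  have e2 := half hQc hcop hS h₁ h₂ hX hCQ hgen hK
  have e1 := half (X₁ := X₂) (X₂ := X₁) hQc hcop hS h₂ h₁ (by rw [sup_comm]; exact hX) hCQ (by
    intro L hL hLn; rw [sup_comm]; exact hgen L hL hLn) (K := K) (by rw [hK, commutator_comm])
  set N := ⁅K, P⁆ with hN
  have hNn : N.Normal := inferInstance
  have hNK : N ≤ K := commutator_le_left K P
  obtain ⟨π, hker⟩ : ∃ π : S →* S ⧸ N, ∀ x, π x = 1 ↔ x ∈ N :=
    ⟨QuotientGroup.mk' N, fun x => QuotientGroup.eq_one_iff x⟩
  have hc : ∀ X : Subgroup S, K ≤ N ⊔ (K ⊓ centralizer (X : Set S)) →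
      K.map π ≤ centralizer ((X.map π : Subgroup (S ⧸ N)) : Set (S ⧸ N)) := by
    intro X hX
    rw [map_le_iff_le_comap]
    refine hX.trans (sup_le ?_ ?_)
    · intro v hv
      rw [mem_comap, (hker v).2 hv]
      exact one_mem _
    · intro v hv
      rw [mem_comap, mem_centralizer_iff]
      rintro _ ⟨x, hx, rfl⟩
      rw [← map_mul, ← map_mul, mem_centralizer_iff.1 (Subgroup.mem_inf.1 hv).2 x hx]
  have hQ : K.map π ≤ centralizer ((Q.map π : Subgroup (S ⧸ N)) : Set (S ⧸ N)) := by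
    rw [le_centralizer_iff, ← hX, Subgroup.map_sup, sup_le_iff]
    exact ⟨le_centralizer_iff.1 (hc X₁ e1), le_centralizer_iff.1 (hc X₂ e2)⟩
  have hQs : Group.IsSolvable Q := Group.isSolvable_of_comm mul_comm'
  have hKN : K ≤ N := by
    intro v hv
    obtain ⟨d, hd, hvd⟩ := H1.Coprime.exists_mul_mem_centralizer (A := Q) (D := N)
      (by rw [normalizer_eq_top N]; exact le_top)
      (Nat.Coprime.coprime_dvd_right (card_dvd_of_le (hNK.trans hKP)) hcop) (Or.inl hQs) v (by
        intro a ha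
        rw [← hker]
        have h1 := (mem_centralizer_iff.mp (hQ (mem_map_of_mem π hv))) (π a) (mem_map_of_mem π ha)
        rw [map_mul, map_mul, map_mul, map_inv, map_inv, h1]; group)
    have h1 : v * d ∈ P ⊓ centralizer (Q : Set S) := Subgroup.mem_inf.2 ⟨mul_mem (hKP hv) (hKP (hNK hd)), hvd⟩
    rw [hCQ, mem_bot] at h1
    rw [eq_inv_of_mul_eq_one_left h1]
    exact inv_mem hd
  have hK0 : K = ⊥ := by
    by_contra hne
    exact H1.Coprime.commutator_lt_of_nilpotent hPnil hKP hne hKN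
  rw [eq_bot_iff, ← hK0]
  exact subset_normalClosure

end Cfsg.Agent.H13.Two
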