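import Cfsg.Agent.H13_CF2
import Cfsg.Agent.H13_AG3

/-!
Two conjugacy functors `W`, `V`: control of strong fusion and transfer by `N(W P)` and `C(V P)`.
-/

set_option autoImplicit false
set_option linter.all false

namespace Cfsg.Agent.H13.VW

open Subgroup Cfsg.Agent.H13.Syl Cfsg.Agent.H13.Alp Cfsg.Agent.H13.CF
open scoped commutatorElement

variable {G : Type*} [Group G] {p : ℕ} {W V : Subgroup G → Subgroup G}

/-- The pair of subgroups attached to `T ≤ H`. -/
def K2 (W V : Subgroup G → Subgroup G) (T H : Subgroup G) : Set (Subgroup G) :=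
  {N | N = H ⊓ normalizer ((W T : Subgroup G) : Set G) ∨ N = H ⊓ centralizer ((V T : Subgroup G) : Set G)}

/-- The local condition, as in the statements. -/
def LS (W V : Subgroup G → Subgroup G) (Q H : Subgroup G) : Prop :=
  ∀ (X : Set G) (a : G), X ⊆ Q → a ∈ H → (fun x => a⁻¹ * x * a) '' X ⊆ Q →
    ∃ c ∈ H ⊓ Subgroup.centralizer X, ∃ (n : ℕ) (b : Fin n → G),
      (∀ i, b i ∈ H ⊓ Subgroup.normalizer ((W Q : Subgroup G) : Set G) ∨
        b i ∈ H ⊓ Subgroup.centralizer ((V Q : Subgroup G) : Set G)) ∧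
      a = c * (List.ofFn b).prod ∧
      ∀ k : ℕ, k ≤ n → (fun x => (((List.ofFn b).take k).prod)⁻¹ * x * ((List.ofFn b).take k).prod) ''
        ((fun x => c⁻¹ * x * c) '' X) ⊆ Q

theorem reach_of_list {K : Set (Subgroup G)} {T : Subgroup G} {A : Set G} (l : List G)
    (h1 : ∀ b ∈ l, ∃ N ∈ K, b ∈ N)
    (h2 : ∀ k ≤ l.length, ∀ a ∈ A, ((l.take k).prod)⁻¹ * a * (l.take k).prod ∈ T) :
    Reach K T A (l.prod)⁻¹ := by
  induction l using List.reverseRecOn with
  | nil => simpa using reach_one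
  | append_singleton l b ih =>
    have h3 : Reach K T A (l.prod)⁻¹ := by
      apply ih
      · intro b' hb'; exact h1 b' (List.mem_append_left _ hb')
      · intro k hk a ha
        have := h2 k (by simp; omega) a ha
        rwa [List.take_append_of_le_length hk] at this
    obtain ⟨N, hN, hbN⟩ := h1 b (by simp)
    have h4 : Reach K T ((fun a => (l.prod)⁻¹ * a * (l.prod)⁻¹⁻¹) '' A) b⁻¹ := by
      apply reach_mem hN (N.inv_mem hbN)
      rintro _ ⟨a, ha, rfl⟩
      have := h2 (l ++ [b]).length le_rfl a ha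
      rw [List.take_length, List.prod_append] at this
      simpa [mul_assoc] using this
    have h5 := reach_comp h3 h4 (fun a ha => ⟨a, ha, rfl⟩)
    simpa using h5

theorem reach_of_LS {Q H : Subgroup G} (h : LS W V Q H) (A : Set G) (g : G) (hg : g ∈ H) (hA : A ⊆ Q)
    (hgA : ∀ a ∈ A, g * a * g⁻¹ ∈ Q) : Reach (K2 W V Q H) Q A g := by
  obtain ⟨c, hc, n, b, h1, h2, h3⟩ := h A g⁻¹ hA (H.inv_mem hg) (by
    rintro _ ⟨a, ha, rfl⟩
    simpa using hgA a ha)
  have hcX : (fun x => c⁻¹ * x * c) '' A = A := AG.rc_comm hc.2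
  rw [hcX] at h3
  have h4 : Reach (K2 W V Q H) Q A ((List.ofFn b).prod)⁻¹ := by
    apply reach_of_list
    · intro x hx
      rw [List.mem_ofFn] at hx
      obtain ⟨i, rfl⟩ := hx
      rcases h1 i with h | h
      · exact ⟨_, Or.inl rfl, h⟩
      · exact ⟨_, Or.inr rfl, h⟩
    · intro k hk a ha
      rw [List.length_ofFn] at hk
      exact h3 k hk ⟨a, ha, rfl⟩
  refine reach_congr h4 (fun a ha => ?_)
  have h5 : g = ((List.ofFn b).prod)⁻¹ * c⁻¹ := by
    rw [← mul_inv_rev, ← h2, inv_inv]
  have h6 : c⁻¹ * a * c = a := by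
    have := Subgroup.mem_centralizer_iff.1 hc.2 a ha
    rw [mul_assoc, this, inv_mul_cancel_left]
  rw [h5]
  calc ((List.ofFn b).prod)⁻¹ * a * ((List.ofFn b).prod)⁻¹⁻¹
      = ((List.ofFn b).prod)⁻¹ * (c⁻¹ * a * c) * ((List.ofFn b).prod)⁻¹⁻¹ := by rw [h6]
    _ = _ := by group

theorem telescope {n : ℕ} (f : Fin (n + 1) → G) (k : ℕ) (hk : k ≤ n) :
    ((List.ofFn fun i : Fin n => f i.castSucc * (f i.succ)⁻¹).take k).prod =
      f 0 * (f ⟨k, Nat.lt_succ_of_le hk⟩)⁻¹ := by
  induction k with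
  | zero => simp
  | succ k ih =>
    have hk' : k < n := hk
    have := List.prod_take_succ (List.ofFn fun i : Fin n => f i.castSucc * (f i.succ)⁻¹) k
      (by simpa using hk')
    rw [this, ih hk'.le, List.getElem_ofFn]
    simp only [Fin.castSucc_mk, Fin.succ_mk]
    group

theorem concl_of_reach {T : Subgroup G} {X : Set G} {a : G} (hX : X ⊆ T)
    (h : Reach (K2 W V T ⊤) T X a⁻¹) :
    ∃ c ∈ Subgroup.centralizer X, ∃ (n : ℕ) (b : Fin n → G),
      (∀ i, b i ∈ ⊤ ⊓ Subgroup.normalizer ((W T : Subgroup G) : Set G) ∨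
        b i ∈ ⊤ ⊓ Subgroup.centralizer ((V T : Subgroup G) : Set G)) ∧
      a = c * (List.ofFn b).prod ∧
      ∀ k : ℕ, k ≤ n → (fun x => (((List.ofFn b).take k).prod)⁻¹ * x * ((List.ofFn b).take k).prod) ''
        ((fun x => c⁻¹ * x * c) '' X) ⊆ T := by
  obtain ⟨d, hd, hd2⟩ := h
  obtain ⟨n, f, h0, h1, h2, h3⟩ := exists_fin_of_reflTransGen (fun a ha => hX ha) hd
  have hfull : (List.ofFn fun i : Fin n => f i.castSucc * (f i.succ)⁻¹).prod = (f (Fin.last n))⁻¹ := by
    have h4 := telescope f n le_rfl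
    rw [List.take_of_length_le (by simp)] at h4
    rw [h4, h0, one_mul]; rfl
  have hc : a * f (Fin.last n) ∈ Subgroup.centralizer X := by
    rw [Subgroup.mem_centralizer_iff]
    intro x hx
    have h4 := hd2 x hx
    rw [h3]
    have h5 : a * (d * x * d⁻¹) * a⁻¹ = x := by rw [h4]; group
    calc x * (a * d) = (a * (d * x * d⁻¹) * a⁻¹) * (a * d) := by rw [h5]
      _ = a * d * x := by group
  refine ⟨a * f (Fin.last n), hc, n, fun i => f i.castSucc * (f i.succ)⁻¹, ?_, ?_, ?_⟩
  · intro i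
    obtain ⟨N, hN, hN2⟩ := h1 i
    have h4 : f i.castSucc * (f i.succ)⁻¹ ∈ N := by
      have := N.inv_mem hN2
      simpa using this
    rcases hN with rfl | rfl
    · exact Or.inl h4
    · exact Or.inr h4
  · rw [hfull]; group
  · intro k hk
    have hcX : (fun x => (a * f (Fin.last n))⁻¹ * x * (a * f (Fin.last n))) '' X = X := AG.rc_comm hc
    rw [hcX, telescope f k hk, h0]
    rintro _ ⟨x, hx, rfl⟩
    simpa using h2 ⟨k, Nat.lt_succ_of_le hk⟩ x hx

theorem reach_K2_cj [Fact p.Prime] [Finite G] (hW : IsConjugacyFunctor p W)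
    (hV : IsConjugacyFunctor p V) {H Q T : Subgroup G} (hQ : IsSylIn p Q H) (h : LS W V Q H)
    (hT : IsSylIn p T H) (A : Set G)
    (g : G) (hg : g ∈ H) (hA : A ⊆ T) (hgA : ∀ a ∈ A, g * a * g⁻¹ ∈ T) :
    Reach (K2 W V T H) T A g := by
  obtain ⟨x, hx, hxT⟩ := hT.exists_conj_eq hQ
  have h5 := reach_of_LS h ((fun a => x⁻¹ * a * x) '' A) (x⁻¹ * g * x)
    (H.mul_mem (H.mul_mem (H.inv_mem hx) hg) hx) (by
      rintro _ ⟨a, ha, rfl⟩
      have := hA ha
      rw [← hxT, SetLike.mem_coe, mem_cj] at this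
      exact this) (by
      rintro _ ⟨a, ha, rfl⟩
      have := hgA a ha
      rw [← hxT, mem_cj] at this
      have h6 : x⁻¹ * g * x * (x⁻¹ * a * x) * (x⁻¹ * g * x)⁻¹ = x⁻¹ * (g * a * g⁻¹) * x := by group
      simp only
      rw [h6]; exact this)
  have h6 := reach_cj x h5
  have h7 : (fun a => x * a * x⁻¹) '' ((fun a => x⁻¹ * a * x) '' A) = A := by
    rw [Set.image_image]
    convert Set.image_id A using 1
    apply Set.image_congr
    intro a _; simp only [id]; group
  have h8 : x * (x⁻¹ * g * x) * x⁻¹ = g := by group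
  rw [h7, h8, hxT] at h6
  have h9 : ((fun N => cj x N) '' K2 W V Q H) ⊆ K2 W V T H := by
    rintro _ ⟨N, hN, rfl⟩
    rcases hN with rfl | rfl
    · left
      change cj x _ = _
      rw [cj_inf, cj_normalizer, ← W_cj hW hQ.2.1, hxT, cj_eq_of_mem hx]
    · right
      change cj x _ = _
      rw [cj_inf, cj_centralizer, ← W_cj hV hQ.2.1, hxT, cj_eq_of_mem hx]
  obtain ⟨c, hc, hc2⟩ := h6
  refine ⟨c, ?_, hc2⟩
  exact Relation.ReflTransGen.mono (fun u v huv => ⟨by
    obtain ⟨N, hN, hN2⟩ := huv.1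
    exact ⟨N, h9 hN, hN2⟩, huv.2⟩) _ _ hc

section tower

variable [Fact p.Prime] [Finite G] {S : Subgroup G}

theorem Z_le_tower (hW : IsConjugacyFunctor p W) (hS : IsPGroup p S)
    (hWZ : ∀ H : Subgroup G, IsPGroup p ↥H → H ⊓ centralizer ((H : Subgroup G) : Set G) ≤ W H)
    {T : Subgroup G} (hT : T ≤ S) (hZT : S ⊓ centralizer (S : Set G) ≤ T) (i : ℕ) :
    S ⊓ centralizer (S : Set G) ≤ functorTower W S T i ∧
    S ⊓ centralizer (S : Set G) ≤ S ⊓ normalizer ((functorTower W S T i : Subgroup G) : Set G) := by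
  have key : ∀ U : Subgroup G, U ≤ S → S ⊓ centralizer (S : Set G) ≤ S ⊓ normalizer (U : Set G) := by
    intro U hU
    refine le_inf inf_le_left ?_
    refine inf_le_right.trans ((Subgroup.centralizer_le hU).trans (Subgroup.centralizer_le_normalizer _))
  have h2 := key _ (tower_le hW hS hT i)
  refine ⟨?_, h2⟩
  cases i with
  | zero => exact hZT
  | succ i =>
    have h3 := key _ (tower_le hW hS hT i)
    refine le_trans ?_ (hWZ _ (hS.to_le inf_le_left))
    refine le_inf h3 ?_
    exact inf_le_right.trans (Subgroup.centralizer_le inf_le_left)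

theorem V_le_V (hS : IsPGroup p S) (hS1 : S ≠ ⊥)
    (hVmono : ∀ H K : Subgroup G, IsPGroup p ↥H → IsPGroup p ↥K → H ≠ ⊥ → K ≠ ⊥ →
      H ⊓ Subgroup.centralizer ((H : Subgroup G) : Set G) ≤
        K ⊓ Subgroup.centralizer ((K : Subgroup G) : Set G) → V H ≤ V K)
    {L : Subgroup G} (hL : L ≤ S) (hZL : S ⊓ centralizer (S : Set G) ≤ L) : V S ≤ V L := by
  have hZ : S ⊓ centralizer (S : Set G) ≠ ⊥ := by
    intro h
    have hn : Nontrivial S := (Subgroup.nontrivial_iff_ne_bot S).2 hS1
    have h1 : Nontrivial (Subgroup.center S) := hS.center_nontrivial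
    obtain ⟨⟨⟨z, hzS⟩, hz⟩, hz1⟩ := exists_ne (1 : Subgroup.center S)
    apply hz1
    have h2 : z ∈ S ⊓ centralizer (S : Set G) := by
      refine ⟨hzS, ?_⟩
      change z ∈ centralizer (S : Set G)
      rw [Subgroup.mem_centralizer_iff]
      intro s hs
      have := Subgroup.mem_center_iff.1 hz ⟨s, hs⟩
      exact congrArg Subtype.val this
    rw [h, Subgroup.mem_bot] at h2
    ext; exact h2
  apply hVmono S L hS (hS.to_le hL) hS1
  · rintro rfl; exact hZ (le_bot_iff.1 hZL)
  · exact le_inf hZL (inf_le_right.trans (Subgroup.centralizer_le hL))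

end tower

section main

variable [Fact p.Prime] [Finite G] {S : Subgroup G}

theorem strong2 (hW : IsConjugacyFunctor p W) (hV : IsConjugacyFunctor p V)
    (hS : IsSylIn p S ⊤) (hS1 : S ≠ ⊥)
    (hWZ : ∀ H : Subgroup G, IsPGroup p ↥H → H ⊓ centralizer ((H : Subgroup G) : Set G) ≤ W H)
    (hVmono : ∀ H K : Subgroup G, IsPGroup p ↥H → IsPGroup p ↥K → H ≠ ⊥ → K ≠ ⊥ →
      H ⊓ Subgroup.centralizer ((H : Subgroup G) : Set G) ≤
        K ⊓ Subgroup.centralizer ((K : Subgroup G) : Set G) → V H ≤ V K)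
    (hloc : ∀ H : Subgroup G, S ⊓ centralizer (S : Set G) ≤ H → H ≤ S →
      ∃ Q : Subgroup G, IsSylIn p Q (normalizer (H : Set G)) ∧ LS W V Q (normalizer (H : Set G))) :
    ∀ A ≤ S, ∀ g, cj g A ≤ S → Reach (K2 W V S ⊤) S (A : Set G) g := by
  refine reach_rel_of hS ⊥ inferInstance bot_le ?_
  intro T _ hTS
  obtain ⟨g, hg⟩ := exists_wellPlaced hW hS hTS
  refine ⟨cj g T, hg.1, ⟨g, rfl⟩, isSylIn_of_wellPlaced hS.2.1 hg 0, ?_⟩
  intro IH n hn
  set U := cj g T with hU
  have hUN := isSylIn_of_wellPlaced hS.2.1 hg 0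
  change IsSylIn p (S ⊓ normalizer (U : Set G)) (normalizer (U : Set G)) at hUN
  by_cases hc : S ⊓ centralizer (U : Set G) ≤ U
  · have hZU : S ⊓ centralizer (S : Set G) ≤ U :=
      le_trans (inf_le_inf_left _ (Subgroup.centralizer_le hg.1)) hc
    have claim : ∀ j i, i + j = Nat.card S + 1 → ∀ A : Subgroup G,
        A ≤ S ⊓ normalizer ((functorTower W S U i : Subgroup G) : Set G) →
        ∀ y ∈ normalizer ((functorTower W S U i : Subgroup G) : Set G),
        cj y A ≤ S ⊓ normalizer ((functorTower W S U i : Subgroup G) : Set G) →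
        Reach (K2 W V S ⊤) S (A : Set G) y := by
      intro j
      induction j with
      | zero =>
        intro i hi A hA y hy hyA
        have h1 : functorTower W S U i = W S := by
          have hi' : i = Nat.card S + 1 := by omega
          rw [hi']
          change W (S ⊓ normalizer ((functorTower W S U (Nat.card S) : Subgroup G) : Set G)) = W S
          rw [tower_norm_eq hW hS.2.1 le_rfl]
        rw [h1] at hy
        exact reach_mem (N := ⊤ ⊓ normalizer ((W S : Subgroup G) : Set G)) (Or.inl rfl)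
          ⟨trivial, hy⟩ (fun a ha => (hyA (conj_mem_cj ha)).1)
      | succ j ih =>
        intro i hi A hA y hy hyA
        have hstep := ih (i + 1) (by omega)
        obtain ⟨hZi, hZi2⟩ := Z_le_tower hW hS.2.1 hWZ hg.1 hZU i
        obtain ⟨Q, hQ, hQ2⟩ := hloc _ hZi (tower_le hW hS.2.1 hg.1 i)
        have hSi := isSylIn_of_wellPlaced hS.2.1 hg i
        obtain ⟨c, hc, hc2⟩ := reach_K2_cj hW hV hQ hQ2 hSi (A : Set G) y hy (fun a ha => hA ha)
          (fun a ha => hyA (conj_mem_cj ha))
        have hcomp : ∀ d, Relation.ReflTransGen (Step (K2 W V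
            (S ⊓ normalizer ((functorTower W S U i : Subgroup G) : Set G))
            (normalizer ((functorTower W S U i : Subgroup G) : Set G)))
            (S ⊓ normalizer ((functorTower W S U i : Subgroup G) : Set G)) (A : Set G)) 1 d →
            cj d A ≤ S ⊓ normalizer ((functorTower W S U i : Subgroup G) : Set G) ∧
              Reach (K2 W V S ⊤) S (A : Set G) d := by
          intro d hd
          induction hd with
          | refl => exact ⟨by rw [cj_one]; exact hA, reach_one⟩
          | tail _ hst ih2 =>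
            rename_i b c' _
            obtain ⟨⟨N, hN, hbN⟩, hc'⟩ := hst
            have hc'' : cj c' A ≤ S ⊓ normalizer ((functorTower W S U i : Subgroup G) : Set G) := by
              rw [cj_le_iff_forall]; exact hc'
            refine ⟨hc'', ?_⟩
            have h7 : c' * b⁻¹ * b = c' := by group
            have h8 : Reach (K2 W V S ⊤) S (cj b A : Set G) (c' * b⁻¹) := by
              rcases hN with rfl | rfl
              · apply hstep (cj b A) (ih2.1.trans (tower_norm_le_succ hW hS.2.1 i)) _ hbN.2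
                rw [← cj_mul, h7]
                exact hc''.trans (tower_norm_le_succ hW hS.2.1 i)
              · refine reach_mem (N := ⊤ ⊓ centralizer ((V S : Subgroup G) : Set G)) (Or.inr rfl)
                  ⟨trivial, Subgroup.centralizer_le (V_le_V hS.2.1 hS1 hVmono inf_le_left hZi2) hbN.2⟩ ?_
                intro a ha
                have : c' * b⁻¹ * a * (c' * b⁻¹)⁻¹ ∈ cj (c' * b⁻¹) (cj b A) := conj_mem_cj ha
                rw [← cj_mul, h7] at this
                exact (hc'' this).1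
            have h9 := reach_comp ih2.2 h8 (fun a ha => conj_mem_cj ha)
            rwa [h7] at h9
        exact reach_congr (hcomp c hc).2 hc2
    refine claim (Nat.card S + 1) 0 (by omega) U (le_inf_normalizer hg.1) n hn ?_
    rw [cj_eq_of_mem_normalizer hn]; exact le_inf_normalizer hg.1
  · -- not centric
    have h1 := AG.inf_centralizer_syl hUN
    obtain ⟨k, hk, m, hm, rfl⟩ := h1.frattini (Subgroup.centralizer_le_normalizer _)
      (Sec.normalizer_le_normalizer_centralizer U) hn
    have hmU : cj m U = U := cj_eq_of_mem_normalizer hm.1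
    have hmC : cj m (S ⊓ centralizer (U : Set G)) = S ⊓ centralizer (U : Set G) :=
      cj_eq_of_mem_normalizer hm.2
    have hlt : U < U ⊔ (S ⊓ centralizer (U : Set G)) :=
      lt_of_le_of_ne le_sup_left (fun h => hc (le_sup_right.trans h.ge))
    have hRm : Reach (K2 W V S ⊤) S (U : Set G) m := by
      refine reach_mono (B := ((U ⊔ (S ⊓ centralizer (U : Set G)) : Subgroup G) : Set G)) ?_
        (IH _ (sup_le hg.1 inf_le_left) (card_lt_of_lt hlt) m ?_)
      · exact SetLike.coe_subset_coe.2 le_sup_left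
      · rw [cj_sup, hmU, hmC]; exact sup_le hg.1 inf_le_left
    refine reach_congr hRm (fun a ha => ?_)
    have h2 : m * a * m⁻¹ ∈ U := by
      have := conj_mem_cj (g := m) (SetLike.mem_coe.1 ha)
      rwa [hmU] at this
    have h3 := Subgroup.mem_centralizer_iff.1 hk _ h2
    calc m * a * m⁻¹ = (m * a * m⁻¹ * k) * k⁻¹ := by group
      _ = (k * (m * a * m⁻¹)) * k⁻¹ := by rw [h3]
      _ = k * m * a * (k * m)⁻¹ := by group

/-- transfer version -/
theorem transfer2 (hW : IsConjugacyFunctor p W) (hV : IsConjugacyFunctor p V)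
    (hS : IsSylIn p S ⊤) (hS1 : S ≠ ⊥)
    (hWZ : ∀ H : Subgroup G, IsPGroup p ↥H → H ⊓ centralizer ((H : Subgroup G) : Set G) ≤ W H)
    (hVmono : ∀ H K : Subgroup G, IsPGroup p ↥H → IsPGroup p ↥K → H ≠ ⊥ → K ≠ ⊥ →
      H ⊓ Subgroup.centralizer ((H : Subgroup G) : Set G) ≤
        K ⊓ Subgroup.centralizer ((K : Subgroup G) : Set G) → V H ≤ V K)
    (hloc : ∀ H : Subgroup G, S ⊓ centralizer (S : Set G) ≤ H → H ≤ S →
      ∃ Q : Subgroup G, IsSylIn p Q (normalizer (H : Set G)) ∧
        Q ⊓ ⁅normalizer (H : Set G), normalizer (H : Set G)⁆ ≤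
          (Q ⊓ ⁅normalizer (H : Set G) ⊓ normalizer ((W Q : Subgroup G) : Set G),
            normalizer (H : Set G) ⊓ normalizer ((W Q : Subgroup G) : Set G)⁆) ⊔
          (Q ⊓ ⁅normalizer (H : Set G) ⊓ centralizer ((V Q : Subgroup G) : Set G),
            normalizer (H : Set G) ⊓ centralizer ((V Q : Subgroup G) : Set G)⁆)) :
    S ⊓ ⁅(⊤ : Subgroup G), ⊤⁆ ≤
      (S ⊓ ⁅normalizer ((W S : Subgroup G) : Set G), normalizer ((W S : Subgroup G) : Set G)⁆) ⊔
      (S ⊓ ⁅centralizer ((V S : Subgroup G) : Set G), centralizer ((V S : Subgroup G) : Set G)⁆) := by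
  set F := (S ⊓ ⁅normalizer ((W S : Subgroup G) : Set G), normalizer ((W S : Subgroup G) : Set G)⁆) ⊔
      (S ⊓ ⁅centralizer ((V S : Subgroup G) : Set G), centralizer ((V S : Subgroup G) : Set G)⁆) with hF
  apply focal_le_of hS
  refine transfer_rel_of hS ⊥ inferInstance bot_le ?_
  intro T _ hTS
  obtain ⟨g, hg⟩ := exists_wellPlaced hW hS hTS
  refine ⟨cj g T, hg.1, ⟨g, rfl⟩, isSylIn_of_wellPlaced hS.2.1 hg 0, ?_⟩
  intro IH n hn a ha
  set U := cj g T with hU
  have hUN := isSylIn_of_wellPlaced hS.2.1 hg 0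
  change IsSylIn p (S ⊓ normalizer (U : Set G)) (normalizer (U : Set G)) at hUN
  by_cases hc : S ⊓ centralizer (U : Set G) ≤ U
  · have hZU : S ⊓ centralizer (S : Set G) ≤ U :=
      le_trans (inf_le_inf_left _ (Subgroup.centralizer_le hg.1)) hc
    have claim : ∀ j i, i + j = Nat.card S + 1 →
        (S ⊓ normalizer ((functorTower W S U i : Subgroup G) : Set G)) ⊓
          ⁅normalizer ((functorTower W S U i : Subgroup G) : Set G),
            normalizer ((functorTower W S U i : Subgroup G) : Set G)⁆ ≤ F := by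
      intro j
      induction j with
      | zero =>
        intro i hi
        have h1 : functorTower W S U i = W S := by
          have hi' : i = Nat.card S + 1 := by omega
          rw [hi']
          change W (S ⊓ normalizer ((functorTower W S U (Nat.card S) : Subgroup G) : Set G)) = W S
          rw [tower_norm_eq hW hS.2.1 le_rfl]
        rw [h1]
        exact le_trans (inf_le_inf_right _ inf_le_left) le_sup_left
      | succ j ih =>
        intro i hi
        have hstep := ih (i + 1) (by omega)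
        obtain ⟨hZi, hZi2⟩ := Z_le_tower hW hS.2.1 hWZ hg.1 hZU i
        obtain ⟨Q, hQ, hQ2⟩ := hloc _ hZi (tower_le hW hS.2.1 hg.1 i)
        have hSi := isSylIn_of_wellPlaced hS.2.1 hg i
        obtain ⟨x, hx, hxT⟩ := hSi.exists_conj_eq hQ
        have h2 := cj_mono (g := x) hQ2
        rw [cj_sup, cj_inf, cj_inf, cj_inf, cj_commutator, cj_commutator, cj_commutator, cj_inf, cj_inf,
          cj_normalizer x (W Q), cj_centralizer, ← W_cj hW hQ.2.1, ← W_cj hV hQ.2.1, hxT,
          cj_eq_of_mem hx] at h2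
        refine h2.trans (sup_le ?_ ?_)
        · refine le_trans ?_ hstep
          exact inf_le_inf (tower_norm_le_succ hW hS.2.1 i) (commutator_mono inf_le_right inf_le_right)
        · refine le_trans ?_ le_sup_right
          refine inf_le_inf inf_le_left ?_
          have h3 : centralizer ((V (S ⊓ normalizer ((functorTower W S U i : Subgroup G) : Set G)) : Subgroup G) : Set G) ≤
              centralizer ((V S : Subgroup G) : Set G) :=
            Subgroup.centralizer_le (V_le_V hS.2.1 hS1 hVmono inf_le_left hZi2)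
          exact commutator_mono (inf_le_right.trans h3) (inf_le_right.trans h3)
    have h1 : n * a * n⁻¹ ∈ U := ((mem_normalizer_iff.1 hn) a).1 ha
    refine claim (Nat.card S + 1) 0 (by omega) (mem_inf.2 ⟨le_inf_normalizer hg.1
      (U.mul_mem h1 (U.inv_mem ha)), ?_⟩)
    have h2 := commutator_mem_commutator hn (Subgroup.le_normalizer ha)
    rwa [commutatorElement_def] at h2
  · -- not centric
    have h1 := AG.inf_centralizer_syl hUN
    obtain ⟨k, hk, m, hm, rfl⟩ := h1.frattini (Subgroup.centralizer_le_normalizer _)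
      (Sec.normalizer_le_normalizer_centralizer U) hn
    have hmU : cj m U = U := cj_eq_of_mem_normalizer hm.1
    have hmC : cj m (S ⊓ centralizer (U : Set G)) = S ⊓ centralizer (U : Set G) :=
      cj_eq_of_mem_normalizer hm.2
    have hlt : U < U ⊔ (S ⊓ centralizer (U : Set G)) :=
      lt_of_le_of_ne le_sup_left (fun h => hc (le_sup_right.trans h.ge))
    have hRm : m * a * m⁻¹ * a⁻¹ ∈ F := by
      refine IH (U ⊔ (S ⊓ centralizer (U : Set G))) (sup_le hg.1 inf_le_left) (card_lt_of_lt hlt) m ?_ a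
        ((le_sup_left : U ≤ U ⊔ (S ⊓ centralizer (U : Set G))) ha)
      rw [cj_sup, hmU, hmC]; exact sup_le hg.1 inf_le_left
    have h2 : m * a * m⁻¹ ∈ U := by
      have := conj_mem_cj (g := m) ha
      rwa [hmU] at this
    have h3 := Subgroup.mem_centralizer_iff.1 hk _ h2
    have h4 : k * m * a * (k * m)⁻¹ * a⁻¹ = m * a * m⁻¹ * a⁻¹ := by
      calc k * m * a * (k * m)⁻¹ * a⁻¹ = (k * (m * a * m⁻¹)) * k⁻¹ * a⁻¹ := by group
        _ = (m * a * m⁻¹ * k) * k⁻¹ * a⁻¹ := by rw [h3]
        _ = _ := by group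
    rw [h4]; exact hRm

end main

end Cfsg.Agent.H13.VW
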