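import Mathlib
import Cfsg.Prelude.Def_Transfer

/-!
Homomorphisms onto `Z_p ≀ Z_p`.
-/

set_option autoImplicit false

namespace Cfsg.Agent.H13.Wr

open Polynomial

theorem geom_eq (p : ℕ) [hp : Fact p.Prime] :
    (X - 1 : (ZMod p)[X]) ^ (p - 1) = ∑ i ∈ Finset.range p, X ^ i := by
  have h1 : (X - 1 : (ZMod p)[X]) ≠ 0 := X_sub_C_ne_zero 1
  apply mul_left_cancel₀ h1
  rw [← pow_succ', Nat.sub_add_cancel hp.out.one_lt.le, sub_pow_char, one_pow, mul_geom_sum]

theorem end_geom {p : ℕ} [hp : Fact p.Prime] {V : Type*} [AddCommGroup V] [Module (ZMod p) V]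
    (Y : Module.End (ZMod p) V) : (Y - 1) ^ (p - 1) = ∑ i ∈ Finset.range p, Y ^ i := by
  have h := congrArg (aeval Y) (geom_eq p)
  simpa using h

theorem finrank_le {p : ℕ} [hp : Fact p.Prime] {V : Type*} [AddCommGroup V] [Module (ZMod p) V] [Finite V]
    (Y : Module.End (ZMod p) V) (hY : Y ^ p = 1) {v : V} (hv : ((Y - 1) ^ (p - 1)) v ≠ 0) :
    p ≤ Module.finrank (ZMod p) V := by
  have hfp : (Y - 1) ^ p = 0 := by
    have h0 : ((X : (ZMod p)[X]) - 1) ^ p = X ^ p - 1 ^ p := sub_pow_char _ _
    have h := congrArg (aeval Y) h0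
    simp only [map_pow, map_sub, aeval_X, map_one, one_pow] at h
    rw [h, hY, sub_self]
  by_contra hlt
  push Not at hlt
  have h1 : (Y - 1) ^ Module.finrank (ZMod p) V = 0 := by
    have h := Module.End.ker_pow_le_ker_pow_finrank (Y - 1) p
    rw [hfp] at h
    ext w
    exact h (by simp)
  apply hv
  have h2 : p - 1 = Module.finrank (ZMod p) V + (p - 1 - Module.finrank (ZMod p) V) := by omega
  rw [h2, pow_add, h1, zero_mul]; rfl

theorem exists_hyperplane_aux {V : Type*} [AddCommGroup V] [Finite V] {p : ℕ} [hp : Fact p.Prime]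
    (hexp : ∀ b : V, p • b = 0) (c : V →+ V) (hc : ∀ b, c^[p] b = b) (x : V)
    (hx : ∑ i ∈ Finset.range p, c^[i] x ≠ 0) :
    ∃ M : AddSubgroup V, M.index = p ∧ ∀ L : AddSubgroup V, L ≤ L.comap c → L ≤ M → p ^ p ≤ L.index := by
  classical
  have _instM : Module (ZMod p) V := AddCommGroup.zmodModule hexp
  let Y : Module.End (ZMod p) V := c.toZModLinearMap p
  have hYc : ∀ v : V, Y v = c v := fun v => rfl
  have hYpow : ∀ (n : ℕ) (v : V), (Y ^ n) v = c^[n] v := by
    intro n
    induction n with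
    | zero => intro v; rfl
    | succ n ih =>
      intro v
      rw [pow_succ', Module.End.mul_apply, hYc, ih, Function.iterate_succ_apply']
  have hYp : Y ^ p = 1 := by
    apply LinearMap.ext
    intro v
    rw [hYpow, hc]; rfl
  have hne : (∑ i ∈ Finset.range p, (Y ^ i)) x ≠ 0 := by
    rw [LinearMap.sum_apply, Finset.sum_congr rfl (fun i _ => hYpow i x)]
    exact hx
  obtain ⟨lam, hlam⟩ : ∃ lam : Module.Dual (ZMod p) V, lam ((∑ i ∈ Finset.range p, (Y ^ i)) x) ≠ 0 := by
    by_contra h
    push Not at h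
    exact hne ((Module.forall_dual_apply_eq_zero_iff (ZMod p) _).1 h)
  let lam' : V →+ ZMod p := lam.toAddMonoidHom
  have hlam' : ∀ a : V, lam' a = lam a := fun a => rfl
  refine ⟨lam'.ker, ?_, ?_⟩
  · rw [AddSubgroup.index_ker]
    have hrange : lam'.range = ⊤ := by
      rw [eq_top_iff]
      intro w _
      have : Function.Surjective lam := LinearMap.surjective (fun h => hlam (by rw [h]; rfl))
      exact this w
    rw [hrange, AddSubgroup.card_top, Nat.card_zmod]
  · intro L hL hLM
    let W : Submodule (ZMod p) V := AddSubgroup.toZModSubmodule p L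
    have hW : ∀ v : V, v ∈ W ↔ v ∈ L := fun v => Iff.rfl
    have hWY : W ≤ W.comap Y := by
      intro v hv
      rw [Submodule.mem_comap, hW, hYc]
      exact hL ((hW v).1 hv)
    let Yq : Module.End (ZMod p) (V ⧸ W) := W.mapQ W Y hWY
    have hYq : ∀ v, Yq (W.mkQ v) = W.mkQ (Y v) := fun v => rfl
    have hYqpow : ∀ n v, (Yq ^ n) (W.mkQ v) = W.mkQ ((Y ^ n) v) := by
      intro n
      induction n with
      | zero => intro v; rfl
      | succ n ih => intro v; rw [pow_succ', Module.End.mul_apply, ih, hYq, pow_succ', Module.End.mul_apply]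
    have hfin : Finite (V ⧸ W) := Finite.of_surjective W.mkQ W.mkQ_surjective
    have h1 := finrank_le (p := p) Yq (by
      apply LinearMap.ext
      intro w
      obtain ⟨v, rfl⟩ := W.mkQ_surjective w
      rw [hYqpow, hYp]; rfl) (v := W.mkQ x) (by
      rw [end_geom]
      have h2 : (∑ i ∈ Finset.range p, Yq ^ i) (W.mkQ x) = W.mkQ ((∑ i ∈ Finset.range p, Y ^ i) x) := by
        rw [LinearMap.sum_apply, LinearMap.sum_apply, map_sum]
        exact Finset.sum_congr rfl (fun i _ => hYqpow i x)
      rw [h2]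
      intro h3
      rw [Submodule.mkQ_apply, Submodule.Quotient.mk_eq_zero, hW] at h3
      exact hlam (hLM h3))
    have h2 : Nat.card (V ⧸ W) = p ^ Module.finrank (ZMod p) (V ⧸ W) := by
      have := Module.natCard_eq_pow_finrank (K := ZMod p) (V := V ⧸ W)
      rwa [Nat.card_zmod] at this
    have h3 : L.index = Nat.card (V ⧸ W) := by
      rw [AddSubgroup.index]
      rfl
    rw [h3, h2]
    exact Nat.pow_le_pow_right hp.out.pos h1

section
variable {P : Type*} [Group P] [Finite P] {p : ℕ} [hp : Fact p.Prime] {A : Subgroup P} [hAn : A.Normal]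

/-- The main construction: a hyperplane `M` of `A` with large index of normal subgroups inside. -/
theorem exists_hyperplane (hA : Cfsg.IsElementaryAbelian p A) {x y : P} (hx : x ∈ A) (hyp : y ^ p ∈ A)
    (hprod : ((List.range p).map (fun i => (y ^ i)⁻¹ * x * y ^ i)).prod ≠ 1) :
    ∃ M : Subgroup P, M ≤ A ∧ M.relIndex A = p ∧
      ∀ L : Subgroup P, L.Normal → L ≤ M → p ^ p ≤ L.relIndex A := by
  classical
  obtain ⟨hAc, hAe⟩ := hA
  have hAA : ∀ a ∈ A, ∀ b ∈ A, a * b = b * a := fun a ha b hb =>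
    congrArg Subtype.val (hAc.is_comm.comm (⟨a, ha⟩ : A) ⟨b, hb⟩)
  let _ : CommGroup A := { (inferInstance : Group A) with mul_comm := fun a b => Subtype.ext (hAA a a.2 b b.2) }
  let c : A →* A :=
    { toFun := fun a => ⟨y⁻¹ * a * y, by
        have := hAn.conj_mem a a.2 y⁻¹
        rwa [inv_inv] at this⟩
      map_one' := Subtype.ext (by simp)
      map_mul' := fun a b => Subtype.ext (by
        show y⁻¹ * (a * b : P) * y = y⁻¹ * a * y * (y⁻¹ * b * y); group) }
  have hc : ∀ (n : ℕ) (a : A), ((c^[n] a : A) : P) = (y ^ n)⁻¹ * a * y ^ n := by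
    intro n
    induction n with
    | zero => intro a; simp
    | succ n ih =>
      intro a
      rw [Function.iterate_succ_apply']
      show y⁻¹ * ((c^[n] a : A) : P) * y = _
      rw [ih, pow_succ]; group
  have hcadd : ∀ (n : ℕ) (v : Additive A), (((MonoidHom.toAdditive c)^[n] v).toMul : P) = (y ^ n)⁻¹ * (v.toMul : P) * y ^ n := by
    intro n
    induction n with
    | zero => intro v; simp
    | succ n ih =>
      intro v
      rw [Function.iterate_succ_apply']
      show y⁻¹ * (((MonoidHom.toAdditive c)^[n] v).toMul : P) * y = _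
      rw [ih, pow_succ]; group
  obtain ⟨M', hM', hML'⟩ := exists_hyperplane_aux (V := Additive A) (p := p)
    (fun b => Additive.toMul.injective (Subtype.ext (hAe _ (Additive.toMul b).2))) (MonoidHom.toAdditive c) (by
    intro b
    apply Additive.toMul.injective
    apply Subtype.ext
    rw [hcadd]
    have := hAA _ hyp _ (Additive.toMul b).2
    rw [mul_assoc, ← this]; group) (Additive.ofMul ⟨x, hx⟩) (by
    intro h
    apply hprod
    have h1 : ∀ n : ℕ, ((Additive.toMul (∑ i ∈ Finset.range n, (MonoidHom.toAdditive c)^[i] (Additive.ofMul (⟨x, hx⟩ : A))) : A) : P) =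
        ((List.range n).map (fun i => (y ^ i)⁻¹ * x * y ^ i)).prod := by
      intro n
      induction n with
      | zero => simp
      | succ n ih =>
        rw [Finset.sum_range_succ, toMul_add, Subgroup.coe_mul, ih, hcadd, List.range_succ, List.map_append, List.prod_append]
        simp
    rw [← h1 p, h]; rfl)
  obtain ⟨M, hM, hML⟩ : ∃ M : Subgroup A, M.index = p ∧ ∀ L : Subgroup A, L ≤ L.comap c → L ≤ M → p ^ p ≤ L.index := by
    refine ⟨AddSubgroup.toSubgroup' M', hM', ?_⟩
    intro L hL hLM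
    exact hML' (Subgroup.toAddSubgroup L) hL hLM
  refine ⟨M.map A.subtype, Subgroup.map_subtype_le _, ?_, ?_⟩
  · rw [← hM, Subgroup.relIndex, Subgroup.subgroupOf, Subgroup.comap_map_eq_self_of_injective (Subgroup.subtype_injective A)]
  · intro L hL hLM
    apply hML (L.subgroupOf A)
    · intro a ha
      rw [Subgroup.mem_subgroupOf] at ha
      show y⁻¹ * (a : P) * y ∈ L
      have := hL.conj_mem _ ha y⁻¹
      rwa [inv_inv] at this
    · intro a ha
      obtain ⟨b, hb, hba⟩ := hLM ha
      have : b = a := Subtype.ext hba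
      rwa [← this]

end

end Cfsg.Agent.H13.Wr
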