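import Mathlib

set_option autoImplicit false
set_option linter.unusedSectionVars false

/-!
Coprime action, elementwise.
-/

namespace Cfsg.Agent.H14.CVL2

theorem step {p : ℕ} [Fact p.Prime] {G : Type*} [Group G] [Finite G] (C : Subgroup G) [C.Normal] (P : Subgroup G)
    (hP : IsPGroup p P) (g : G) (hgp : (orderOf g).Coprime p) (a : G)
    (hc : a * g * a⁻¹ * g⁻¹ ∈ P)
    (h : (a * g * a⁻¹ * g⁻¹) * g * (a * g * a⁻¹ * g⁻¹)⁻¹ * g⁻¹ ∈ C) : a * g * a⁻¹ * g⁻¹ ∈ C := by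
  set c : G := a * g * a⁻¹ * g⁻¹ with hcdef
  -- modulo C
  let q := QuotientGroup.mk' C
  have h1 : q c * q g = q g * q c := by
    have : q (c * g * c⁻¹ * g⁻¹) = 1 := (QuotientGroup.eq_one_iff _).2 h
    rw [map_mul, map_mul, map_mul, map_inv, map_inv] at this
    have h2 := mul_inv_eq_one.1 this
    exact mul_inv_eq_iff_eq_mul.1 h2
  have h3 : c * g = a * g * a⁻¹ := by rw [hcdef]; group
  have h4 : (q c) ^ orderOf g = 1 := by
    have h5 : (q c * q g) ^ orderOf g = 1 := by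
      rw [← map_mul, h3, ← map_pow, conj_pow, pow_orderOf_eq_one, mul_one, mul_inv_cancel, map_one]
    rw [(show Commute (q c) (q g) from h1).mul_pow, ← map_pow q g, pow_orderOf_eq_one, map_one, mul_one] at h5
    exact h5
  obtain ⟨j, hj⟩ := hP ⟨c, hc⟩
  have h6 : c ^ p ^ j = 1 := congrArg Subtype.val hj
  have h7 : (q c) ^ p ^ j = 1 := by rw [← map_pow, h6, map_one]
  have h8 := Nat.dvd_gcd (orderOf_dvd_of_pow_eq_one h4) (orderOf_dvd_of_pow_eq_one h7)
  have h9 : Nat.gcd (orderOf g) (p ^ j) = 1 := Nat.Coprime.pow_right j hgp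
  rw [h9, Nat.dvd_one] at h8
  exact (QuotientGroup.eq_one_iff c).1 (orderOf_eq_one_iff.1 h8)

theorem L2 {p : ℕ} [Fact p.Prime] {G : Type*} [Group G] [Finite G] (C : Subgroup G) [C.Normal] (P : Subgroup G)
    (hP : IsPGroup p P) (g : G) (hg : g ∈ Subgroup.normalizer (P : Set G)) (hgp : (orderOf g).Coprime p) (v : G) (hv : v ∈ P)
    (k : ℕ) (hk : (fun a => a * g * a⁻¹ * g⁻¹)^[k] v ∈ C) : v * g * v⁻¹ * g⁻¹ ∈ C := by
  have hmem : ∀ a ∈ P, a * g * a⁻¹ * g⁻¹ ∈ P := by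
    intro a ha
    have h1 : g * a⁻¹ * g⁻¹ ∈ P := (Subgroup.mem_normalizer_iff.1 hg _).1 (inv_mem ha)
    have : a * g * a⁻¹ * g⁻¹ = a * (g * a⁻¹ * g⁻¹) := by group
    rw [this]
    exact mul_mem ha h1
  have hit : ∀ n : ℕ, (fun a => a * g * a⁻¹ * g⁻¹)^[n] v ∈ P := by
    intro n
    induction n with
    | zero => exact hv
    | succ n ih =>
      rw [Function.iterate_succ_apply']
      exact hmem _ ih
  induction k with
  | zero =>
    have h1 : v ∈ C := hk
    have h2 : g * v⁻¹ * g⁻¹ ∈ C := Subgroup.Normal.conj_mem inferInstance _ (inv_mem h1) g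
    have : v * g * v⁻¹ * g⁻¹ = v * (g * v⁻¹ * g⁻¹) := by group
    rw [this]
    exact mul_mem h1 h2
  | succ n ih =>
    rcases n with _ | n
    · exact hk
    · apply ih
      rw [Function.iterate_succ_apply'] at hk ⊢
      apply step C P hP g hgp _ (hmem _ (hit n))
      rw [Function.iterate_succ_apply'] at hk
      exact hk

end Cfsg.Agent.H14.CVL2
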