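import Cfsg.Agent.H1_Hall

set_option autoImplicit false
set_option linter.unusedSectionVars false

/-!
Solvable groups: a `p'`-subgroup with large normalizer.
-/

namespace Cfsg.Agent.H14.CVL3

open Cfsg.Agent.H1.Basic Cfsg.Agent.H1.SZ Cfsg.Agent.H1.Coprime Cfsg.Agent.H1.Nilp Cfsg.Agent.H1.Hall

theorem L3 {G : Type*} [Group G] [Finite G] [Group.IsSolvable G] (p : ℕ) [hp : Fact p.Prime] (O : Subgroup G) [hOn : O.Normal]
    (hO : IsPGroup p O) (hmax : ∀ N : Subgroup G, N.Normal → IsPGroup p N → N ≤ O) :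
    ∃ U : Subgroup G, (Nat.card U).Coprime p ∧ O ⊔ Subgroup.normalizer (U : Set G) = ⊤ ∧
      Subgroup.centralizer (U : Set G) ⊓ Subgroup.normalizer (U : Set G) ≤ O ⊔ U := by
  set f := QuotientGroup.mk' O with hf
  have hfs : Function.Surjective f := QuotientGroup.mk'_surjective O
  have hker : f.ker = O := QuotientGroup.ker_mk' O
  have hb : Cfsg.pCore p (G ⧸ O) = ⊥ := by
    have h1 : IsPGroup p ((Cfsg.pCore p (G ⧸ O)).comap f) :=
      IsPGroup.comap_of_ker_isPGroup (pCore_isPGroup p) f (by rw [hker]; exact hO)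
    have h2 : (Cfsg.pCore p (G ⧸ O)).comap f ≤ O := hmax _ ((pCore_normal p).comap f) h1
    rw [eq_bot_iff]
    intro x hx
    obtain ⟨y, rfl⟩ := hfs x
    have h3 : y ∈ f.ker := by rw [hker]; exact h2 hx
    exact h3
  set Mb := Cfsg.pPrimeCore p (G ⧸ O) with hMb
  have hMbc : (Nat.card Mb).Coprime p := pPrimeCore_coprime p
  have hMbn : Mb.Normal := pPrimeCore_normal p
  have hFM : Cfsg.fittingSubgroup (G ⧸ O) ≤ Mb := by
    refine (fitting_le_sup p).trans ?_
    rw [hb, bot_sup_eq]
  have hCM : Subgroup.centralizer (Mb : Set (G ⧸ O)) ≤ Mb :=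
    ((Subgroup.centralizer_le hFM).trans centralizer_fitting_le).trans hFM
  set M := Mb.comap f with hM
  haveI hMn : M.Normal := hMbn.comap f
  have hcM : Nat.card M = Nat.card Mb * Nat.card O := card_comap_mk O Mb
  obtain ⟨k, hk⟩ := hO.exists_card_eq
  have hcop : (Nat.card Mb).Coprime (Nat.card O) := by rw [hk]; exact Nat.Coprime.pow_right k hMbc
  obtain ⟨H, hH⟩ := hall_exists (G := M) (Nat.card Mb) (Nat.card O) hcM hcop
  set U : Subgroup G := H.map M.subtype with hU
  have hUM : U ≤ M := Subgroup.map_subtype_le H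
  have hcU : Nat.card U = Nat.card Mb := by
    rw [hU, Subgroup.card_map_of_injective M.subtype_injective, hH]
  have hOM : O ≤ M := by
    intro x hx
    change f x ∈ Mb
    have : x ∈ f.ker := by rw [hker]; exact hx
    rw [MonoidHom.mem_ker.1 this]
    exact one_mem _
  have hsup : U ⊔ O = M := by
    apply Subgroup.eq_of_le_of_card_ge (sup_le hUM hOM)
    rw [hcM]
    apply Nat.le_of_dvd Nat.card_pos
    apply Nat.Coprime.mul_dvd_of_dvd_of_dvd hcop
    · rw [← hcU]; exact Subgroup.card_dvd_of_le le_sup_left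
    · exact Subgroup.card_dvd_of_le le_sup_right
  have hrel : (Nat.card U).Coprime (U.relIndex M) := by
    have h1 := relIndex_mul_card hUM
    rw [hcM, hcU, mul_comm] at h1
    have h2 := Nat.eq_of_mul_eq_mul_left Nat.card_pos h1
    rw [h2, hcU]
    exact hcop
  have hfr := hall_frattini M inferInstance U hUM hrel
  refine ⟨U, by rw [hcU]; exact hMbc, ?_, ?_⟩
  · rw [eq_top_iff, ← hfr, ← hsup]
    refine sup_le (sup_le ?_ le_sup_left) le_sup_right
    exact Subgroup.le_normalizer.trans le_sup_right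
  · intro c hc
    have hc1 := (Subgroup.mem_inf.1 hc).1
    rw [sup_comm, hsup]
    change f c ∈ Mb
    apply hCM
    rw [Subgroup.mem_centralizer_iff]
    intro x hx
    have hmap : Mb = U.map f := by
      have h1 : M.map f = Mb := Subgroup.map_comap_eq_self_of_surjective hfs Mb
      rw [← h1, ← hsup, Subgroup.map_sup]
      have h2 : O.map f = ⊥ := by
        rw [Subgroup.map_eq_bot_iff, hker]
      rw [h2, sup_bot_eq]
    have hx' : x ∈ U.map f := by rw [← hmap]; exact hx
    obtain ⟨u, hu, rfl⟩ := hx'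
    rw [← map_mul, ← map_mul]
    congr 1
    exact Subgroup.mem_centralizer_iff.1 hc1 u hu

end Cfsg.Agent.H14.CVL3
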