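import Mathlib
import Cfsg.Agent.H17_CV

set_option autoImplicit false

namespace Cfsg.Agent.H17.CV2
open Cfsg.Agent.H17.CV

theorem V_conj {G : Type*} [Group G] (k : ℕ) : ∀ x ∈ V G k, ∀ g : G, g * x * g⁻¹ ∈ V G k := by
  induction k with
  | zero => intro x _ g; trivial
  | succ k ih =>
    rintro x ⟨a, ha, b, rfl⟩ g
    exact ⟨g * a * g⁻¹, ih a ha g, g * b * g⁻¹, by group⟩

theorem V_inv {G : Type*} [Group G] (k : ℕ) : ∀ x ∈ V G k, x⁻¹ ∈ V G k := by
  induction k with
  | zero => intro x _; trivial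
  | succ k ih =>
    rintro x ⟨a, ha, b, rfl⟩
    exact ⟨a⁻¹, ih a ha, a * b * a⁻¹, by group⟩

theorem V_anti {G : Type*} [Group G] (k : ℕ) : V G (k + 1) ⊆ V G k := by
  induction k with
  | zero => intro x _; trivial
  | succ k ih =>
    rintro x ⟨a, ha, b, rfl⟩
    exact ⟨a, ih ha, b, rfl⟩

theorem V_map {G H : Type*} [Group G] [Group H] (f : H →* G) (k : ℕ) : ∀ x ∈ V H k, f x ∈ V G k := by
  induction k with
  | zero => intro x _; trivial
  | succ k ih =>
    rintro x ⟨a, ha, b, rfl⟩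
    exact ⟨f a, ih a ha, f b, by simp⟩

theorem V_iter {G : Type*} [Group G] (k : ℕ) (v g : G) : (fun a => a * g * a⁻¹ * g⁻¹)^[k] v ∈ V G k := by
  induction k with
  | zero => trivial
  | succ k ih =>
    rw [Function.iterate_succ_apply']
    exact ⟨_, ih, g, rfl⟩

theorem HA_sub {G : Type*} [Group G] {k : ℕ} (h : HA G k) (H : Subgroup G) : HA H k := by
  intro x hx y hc
  have h1 := h (x : G) (V_map H.subtype k x hx) (y : G) (by
    rw [← Subgroup.orderOf_coe, ← Subgroup.orderOf_coe] at hc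
    simpa using hc)
  exact Subtype.ext (by simpa using h1)

theorem V_lcs {G : Type*} [Group G] (k : ℕ) : ∀ x ∈ V G k, x ∈ (⊤ : Subgroup G).lowerCentralSeries k := by
  induction k with
  | zero => intro x _; trivial
  | succ k ih =>
    rintro x ⟨a, ha, b, rfl⟩
    rw [Subgroup.lowerCentralSeries_succ]
    exact Subgroup.commutator_mem_commutator (ih a ha) (Subgroup.mem_top b)

theorem commute_nilp {G : Type*} [Group G] (hG : Group.IsNilpotent G) :
    ∀ x y : G, (orderOf x).Coprime (orderOf y) → Commute x y := by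
  have := hG
  refine Group.nilpotent_center_quotient_ind (P := fun G [Group G] [Group.IsNilpotent G] =>
    ∀ x y : G, (orderOf x).Coprime (orderOf y) → Commute x y) G ?_ ?_
  · intro G _ _ x y _
    exact Subsingleton.elim _ _
  · intro G _ _ ih x y hxy
    have h1 := ih (x : G ⧸ Subgroup.center G) (y : G ⧸ Subgroup.center G)
      (Nat.Coprime.coprime_dvd_left (orderOf_map_dvd (QuotientGroup.mk' _) x)
        (Nat.Coprime.coprime_dvd_right (orderOf_map_dvd (QuotientGroup.mk' _) y) hxy))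
    have h2 : x * y * x⁻¹ * y⁻¹ ∈ Subgroup.center G := by
      rw [← QuotientGroup.eq_one_iff]
      have h1' : (x : G ⧸ Subgroup.center G) * (y : G ⧸ Subgroup.center G) =
        (y : G ⧸ Subgroup.center G) * (x : G ⧸ Subgroup.center G) := h1.eq
      rw [QuotientGroup.mk_mul, QuotientGroup.mk_mul, QuotientGroup.mk_mul, QuotientGroup.mk_inv,
        QuotientGroup.mk_inv, h1']
      group
    set c := x * y * x⁻¹ * y⁻¹ with hc
    have hcc := Subgroup.mem_center_iff.mp h2
    -- x y x⁻¹ = c y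
    have h3 : x * y * x⁻¹ = c * y := by rw [hc]; group
    have h4 : c ^ orderOf y = 1 := by
      have h5 : (x * y * x⁻¹) ^ orderOf y = 1 := by
        rw [conj_pow, pow_orderOf_eq_one]; group
      rw [h3, (show Commute c y from (hcc y).symm).mul_pow, pow_orderOf_eq_one, mul_one] at h5
      exact h5
    have h6 : y * x * y⁻¹ = c⁻¹ * x := by
      rw [hc]; group
    have h7 : c⁻¹ ^ orderOf x = 1 := by
      have h5 : (y * x * y⁻¹) ^ orderOf x = 1 := by
        rw [conj_pow, pow_orderOf_eq_one]; group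
      rw [h6, (show Commute c⁻¹ x from (Commute.inv_left (hcc x).symm)).mul_pow, pow_orderOf_eq_one, mul_one] at h5
      exact h5
    rw [inv_pow, inv_eq_one] at h7
    have h8 : orderOf c ∣ 1 := by
      rw [← hxy]
      exact Nat.dvd_gcd (orderOf_dvd_of_pow_eq_one h7) (orderOf_dvd_of_pow_eq_one h4)
    have h9 : c = 1 := orderOf_eq_one_iff.mp (Nat.dvd_one.mp h8)
    rw [h9, one_mul, mul_inv_eq_iff_eq_mul] at h3
    exact h3

def op {G : Type*} [Group G] (a b : G) : G := a * b * a⁻¹ * b⁻¹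

theorem fold_iff {G : Type*} [Group G] (k : ℕ) (x : G) :
    (∃ f : Fin (k + 1) → G, x = ((List.ofFn f).tail).foldl (fun a b => a * b * a⁻¹ * b⁻¹) (f 0)) ↔ x ∈ V G k := by
  induction k generalizing x with
  | zero =>
    constructor
    · intro _; trivial
    · intro _; exact ⟨fun _ => x, by simp⟩
  | succ k ih =>
    have key : ∀ f : Fin (k + 1 + 1) → G,
        ((List.ofFn f).tail).foldl (fun a b => a * b * a⁻¹ * b⁻¹) (f 0) =
        (fun a b => a * b * a⁻¹ * b⁻¹) (((List.ofFn (fun i : Fin (k + 1) => f i.castSucc)).tail).foldl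
          (fun a b => a * b * a⁻¹ * b⁻¹) (f (Fin.castSucc 0))) (f (Fin.last _)) := by
      intro f
      have h1 : (List.ofFn f).tail = (List.ofFn (fun i : Fin (k + 1) => f i.castSucc)).tail ++ [f (Fin.last _)] := by
        rw [List.ofFn_succ', List.concat_eq_append, List.tail_append_of_ne_nil]
        simp
      rw [h1, List.foldl_append]
      simp
    constructor
    · rintro ⟨f, hf⟩
      rw [key f] at hf
      exact ⟨_, (ih _).mp ⟨fun i => f i.castSucc, rfl⟩, f (Fin.last _), hf⟩
    · rintro ⟨a, ha, b, rfl⟩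
      obtain ⟨g, hg⟩ := (ih a).mpr ha
      refine ⟨Fin.snoc g b, ?_⟩
      rw [key]
      simp only [Fin.snoc_castSucc, Fin.snoc_last]
      rw [← hg]

theorem lemA {G : Type*} [Group G] [Finite G] (k : ℕ)
    (h : ∀ x y : G, x ∈ V G k → y ∈ V G k → (orderOf x).Coprime (orderOf y) →
      (∀ r : ℕ, r.Prime → r ∣ orderOf x * orderOf y → r ∣ orderOf (x * y)) ∨ orderOf x * orderOf y ≤ orderOf (x * y)) :
    HA G k := by
  intro x hx y hc
  set c := x * y * x⁻¹ * y⁻¹ with hcdef
  have hcV : c⁻¹ ∈ V G k := V_inv k _ (V_anti k ⟨x, hx, y, rfl⟩)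
  have h1 : orderOf (c⁻¹ * x) = orderOf x := by
    have : c⁻¹ * x = y * x * y⁻¹ := by rw [hcdef]; group
    rw [this]
    exact (MulAut.conj y).orderOf_eq x
  have h2 := h c⁻¹ x hcV hx (by rw [orderOf_inv]; exact hc.symm)
  rw [h1, orderOf_inv] at h2
  have h3 : orderOf c = 1 := by
    rcases h2 with h2 | h2
    · by_contra h4
      obtain ⟨r, hr, hrd⟩ := Nat.exists_prime_and_dvd h4
      have h5 := h2 r hr (Dvd.dvd.mul_right hrd _)
      have h6 := Nat.dvd_gcd h5 hrd
      rw [hc] at h6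
      exact hr.one_lt.ne' (Nat.dvd_one.mp h6)
    · have h4 := orderOf_pos x
      have h5 := orderOf_pos c
      nlinarith
  have h4 := orderOf_eq_one_iff.mp h3
  rw [hcdef, mul_inv_eq_one, mul_inv_eq_iff_eq_mul] at h4
  exact h4

theorem forward {G : Type*} [Group G] [Finite G] (k : ℕ)
    (h : Group.IsNilpotent ↥((⊤ : Subgroup G).lowerCentralSeries k)) (x y : G) (hx : x ∈ V G k) (hy : y ∈ V G k)
    (hc : (orderOf x).Coprime (orderOf y)) : orderOf x * orderOf y ≤ orderOf (x * y) := by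
  have h1 := commute_nilp h ⟨x, V_lcs k x hx⟩ ⟨y, V_lcs k y hy⟩ (by
    rw [← Subgroup.orderOf_coe, ← Subgroup.orderOf_coe]; exact hc)
  have h2 : Commute x y := by
    have := congrArg Subtype.val h1.eq
    exact this
  rw [h2.orderOf_mul_eq_mul_orderOf_of_coprime hc]

end Cfsg.Agent.H17.CV2
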