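import Cfsg.Statements.S0200
import Mathlib
import Cfsg.Agent.H4_BaerSuzuki
import Cfsg.Agent.H4_Inv

set_option autoImplicit false
open Cfsg

namespace Cfsg.Agent.S0200

open Cfsg.Agent.H4.Inv

/-- An involution lying in no normal 2-subgroup of a finite group inverts a nontrivial element of odd order (a consequence of the Baer–Suzuki Theorem). -/
theorem result {G : Type*} [Group G] [Finite G] (t : G) (ht : orderOf t = 2) (hO : ∀ N : Subgroup G, N.Normal → IsPGroup 2 N → t ∉ N) : ∃ h : G, h ≠ 1 ∧ Odd (orderOf h) ∧ t * h * t⁻¹ = h⁻¹ := by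
  by_contra hno
  push Not at hno
  have hX : IsPGroup 2 (Subgroup.zpowers t) := by
    rw [IsPGroup.iff_card]
    exact ⟨1, by rw [Nat.card_zpowers, ht]; norm_num⟩
  have htt := mul_self ht
  have h : ∀ g : G, IsPGroup 2 ↥(Subgroup.zpowers t ⊔ (Subgroup.zpowers t).map (MulAut.conj g).toMonoidHom) := by
    intro g
    set s := g * t * g⁻¹ with hs
    have hs2 : orderOf s = 2 := by rw [hs, orderOf_conj]; exact ht
    -- the order of t*s is a power of 2
    have hpow : ∃ k, orderOf (t * s) = 2 ^ k := by
      obtain ⟨k, m, hm, hkm⟩ := Nat.exists_eq_two_pow_mul_odd (n := orderOf (t * s)) (orderOf_pos _).ne'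
      refine ⟨k, ?_⟩
      by_contra hne
      have hm1 : m ≠ 1 := by
        rintro rfl
        exact hne (by simpa using hkm)
      have hord : orderOf ((t * s) ^ (2 ^ k)) = m := by
        rw [orderOf_pow, hkm]
        have : Nat.gcd (2 ^ k * m) (2 ^ k) = 2 ^ k := by
          rw [Nat.gcd_comm]; exact Nat.gcd_eq_left (Dvd.intro _ rfl)
        rw [this, Nat.mul_div_cancel_left _ (by positivity)]
      apply hno ((t * s) ^ (2 ^ k))
      · intro h1
        rw [h1, orderOf_one] at hord
        exact hm1 hord.symm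
      · rw [hord]; exact hm
      · have := conj_mul_zpow ht hs2 (2 ^ k : ℕ)
        rw [zpow_natCast] at this
        exact this
    obtain ⟨k, hk⟩ := hpow
    have hzp : IsPGroup 2 (Subgroup.zpowers (t * s)) := by
      rw [IsPGroup.iff_card]
      exact ⟨k, by rw [Nat.card_zpowers, hk]⟩
    have hle : (Subgroup.zpowers t ⊔ (Subgroup.zpowers t).map (MulAut.conj g).toMonoidHom) ≤
        Subgroup.zpowers t ⊔ Subgroup.zpowers (t * s) := by
      refine sup_le le_sup_left ?_
      rw [MonoidHom.map_zpowers, Subgroup.zpowers_le]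
      have e : (MulAut.conj g).toMonoidHom t = t * (t * s) := by
        rw [← mul_assoc, htt, one_mul, hs]; rfl
      rw [e]
      exact Subgroup.mul_mem _ (Subgroup.mem_sup_left (Subgroup.mem_zpowers t))
        (Subgroup.mem_sup_right (Subgroup.mem_zpowers _))
    refine IsPGroup.to_le ?_ hle
    refine IsPGroup.to_sup_of_normal_right' hX hzp ?_
    rw [Subgroup.zpowers_le]
    rw [Subgroup.mem_normalizer_iff]
    have key : ∀ h, h ∈ Subgroup.zpowers (t * s) → t * h * t⁻¹ ∈ Subgroup.zpowers (t * s) := by
      rintro h ⟨n, rfl⟩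
      simp only
      rw [conj_mul_zpow ht hs2]
      exact Subgroup.inv_mem _ (Subgroup.zpow_mem _ (Subgroup.mem_zpowers _) n)
    intro h
    constructor
    · exact key h
    · intro h1
      have := key _ h1
      rw [inv_eq ht] at this
      have e : t * (t * h * t) * t = h := by
        calc t * (t * h * t) * t = (t * t) * h * (t * t) := by group
          _ = h := by rw [htt]; group
      rwa [e] at this
  obtain ⟨N, hN, hNp, hXN⟩ := Cfsg.Agent.H4.BaerSuzuki.baer_suzuki (Subgroup.zpowers t) hX h
  exact hO N hN hNp (hXN (Subgroup.mem_zpowers t))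

end Cfsg.Agent.S0200
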