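import Mathlib
import Cfsg.Agent.S0200

set_option autoImplicit false

namespace Cfsg.Agent.H3.CVL5

open Subgroup

theorem L5 {G : Type*} [Group G] [Finite G] (x : G) (n : ℕ) (_hx : orderOf x = 2 ^ n) (hxZ : x ∉ center G)
    (hx2 : x ^ 2 ∈ center G) (hz : IsSimpleGroup (G ⧸ center G)) (hns : ¬ Group.IsSolvable G) :
    ∃ y : G, Odd (orderOf (x * y * x⁻¹ * y⁻¹)) ∧ x * y ≠ y * x := by
  have h2 : Fact (Nat.Prime 2) := ⟨Nat.prime_two⟩
  obtain ⟨t, ht⟩ : ∃ t : G ⧸ center G, t = (x : G ⧸ center G) := ⟨_, rfl⟩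
  have ht1 : t ≠ 1 := by
    rw [ht]
    intro h
    exact hxZ ((QuotientGroup.eq_one_iff x).mp h)
  have ht2 : orderOf t = 2 := by
    apply orderOf_eq_prime _ ht1
    rw [ht, ← QuotientGroup.mk_pow]
    exact (QuotientGroup.eq_one_iff _).mpr hx2
  obtain ⟨h, hh1, hodd, hinv⟩ := S0200.result t ht2 (by
    intro N hN hNp htN
    rcases hz.eq_bot_or_eq_top_of_normal N hN with h | h
    · rw [h, mem_bot] at htN
      exact ht1 htN
    · apply hns
      have h3 : IsPGroup 2 (G ⧸ center G) := by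
        rw [h] at hNp
        exact hNp.of_equiv Subgroup.topEquiv
      have h4 : Group.IsNilpotent (G ⧸ center G) := h3.isNilpotent
      have h5 : Group.IsNilpotent G := Group.of_quotient_center_nilpotent h4
      infer_instance)
  obtain ⟨y₀, rfl⟩ := QuotientGroup.mk_surjective h
  obtain ⟨a, m, hm, ham⟩ := Nat.exists_eq_pow_mul_and_not_dvd (orderOf_pos y₀).ne' 2 (by norm_num)
  have hmodd : Odd m := by
    rw [← Nat.not_even_iff_odd, even_iff_two_dvd]; exact hm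
  obtain ⟨y, hy⟩ : ∃ y, y = y₀ ^ 2 ^ a := ⟨_, rfl⟩
  have hym : y ^ m = 1 := by rw [hy, ← pow_mul, ← ham, pow_orderOf_eq_one]
  have hybar : (y : G ⧸ center G) = (y₀ : G ⧸ center G) ^ 2 ^ a := by rw [hy]; rfl
  have hy1 : (y : G ⧸ center G) ≠ 1 := by
    intro h3
    rw [hybar] at h3
    apply hh1
    have h4 : orderOf (y₀ : G ⧸ center G) ∣ 2 ^ a := orderOf_dvd_of_pow_eq_one h3
    have h5 : (orderOf (y₀ : G ⧸ center G)).Coprime (2 ^ a) := Nat.Coprime.pow_right a (Nat.coprime_two_right.mpr hodd)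
    exact orderOf_eq_one_iff.mp (Nat.Coprime.eq_one_of_dvd h5 h4)
  have hyinv : (x : G ⧸ center G) * y * (x : G ⧸ center G)⁻¹ = (y : G ⧸ center G)⁻¹ := by
    rw [hybar, ← ht, ← conj_pow, hinv, inv_pow]
  obtain ⟨z, hzdef⟩ : ∃ z, z = x * y * x⁻¹ * y := ⟨_, rfl⟩
  have hzc : z ∈ center G := by
    rw [← QuotientGroup.eq_one_iff, hzdef]
    rw [QuotientGroup.mk_mul, QuotientGroup.mk_mul, QuotientGroup.mk_mul, QuotientGroup.mk_inv, hyinv, inv_mul_cancel]
  have hzcomm : ∀ g, Commute z g := fun g => (mem_center_iff.mp hzc g).symm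
  have hxy : x * y * x⁻¹ = z * y⁻¹ := by rw [hzdef]; group
  have hzm : z ^ m = 1 := by
    have h3 : (x * y * x⁻¹) ^ m = 1 := by rw [conj_pow, hym]; group
    rw [hxy, (hzcomm _).mul_pow, inv_pow, hym, inv_one, mul_one] at h3
    exact h3
  refine ⟨y, ?_, ?_⟩
  · have h3 : (x * y * x⁻¹ * y⁻¹) ^ m = 1 := by
      rw [hxy, mul_assoc, (hzcomm _).mul_pow, hzm, one_mul, ← pow_two, ← pow_mul, mul_comm, pow_mul, inv_pow, hym, inv_one, one_pow]
    exact Odd.of_dvd_nat hmodd (orderOf_dvd_of_pow_eq_one h3)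
  · intro h3
    apply hy1
    have h4 : (x : G ⧸ center G) * y * (x : G ⧸ center G)⁻¹ = y := by
      rw [← QuotientGroup.mk_mul, h3, QuotientGroup.mk_mul]; group
    rw [hyinv] at h4
    have h5 : (y : G ⧸ center G) ^ 2 = 1 := by
      rw [pow_two]; nth_rewrite 1 [← h4]; group
    have h6 : (y : G ⧸ center G) ^ m = 1 := by
      rw [← QuotientGroup.mk_pow, hym]; rfl
    exact orderOf_eq_one_iff.mp (Nat.eq_one_of_dvd_coprimes (Nat.coprime_two_left.mpr hmodd)
      (orderOf_dvd_of_pow_eq_one h5) (orderOf_dvd_of_pow_eq_one h6))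

end Cfsg.Agent.H3.CVL5
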