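import Mathlib
import Cfsg.Agent.H2_Fusion3
import Cfsg.Agent.H13_Syl

set_option autoImplicit false

open Cfsg Subgroup

namespace Cfsg.Agent.H6.CVL1

theorem sup_eq {p : ℕ} [hp : Fact p.Prime] {G : Type*} [Group G] [Finite G] (C : Subgroup G) [C.Normal]
    {H T : Subgroup G} (hCH : C ≤ H) (hH : ∃ n, C.relIndex H = p ^ n)
    (hTH : T ≤ H) (hT : ¬ p ∣ T.relIndex H) : C ⊔ T = H := by
  have hle : C ⊔ T ≤ H := sup_le hCH hTH
  have h1 : (C ⊔ T).relIndex H ∣ C.relIndex H := Subgroup.relIndex_dvd_of_le_left _ le_sup_left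
  have h2 : (C ⊔ T).relIndex H ∣ T.relIndex H := Subgroup.relIndex_dvd_of_le_left _ le_sup_right
  obtain ⟨n, hn⟩ := hH
  rw [hn] at h1
  obtain ⟨k, -, hk⟩ := (Nat.dvd_prime_pow hp.out).1 h1
  have h3 : (C ⊔ T).relIndex H = 1 := by
    rcases Nat.eq_zero_or_pos k with h0 | h0
    · rw [hk, h0, pow_zero]
    · exfalso
      apply hT
      refine dvd_trans ?_ h2
      rw [hk]
      exact dvd_pow_self p h0.ne'
  exact le_antisymm hle (Subgroup.relIndex_eq_one.1 h3)

theorem rel_eq {G : Type*} [Group G] (C : Subgroup G) [C.Normal] (H : Subgroup G) :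
    C.relIndex H = Nat.card ↥(H.map (QuotientGroup.mk' C)) := by
  have h1 : C = (⊥ : Subgroup (G ⧸ C)).comap (QuotientGroup.mk' C) := by
    rw [MonoidHom.comap_bot, QuotientGroup.ker_mk']
  conv_lhs => rw [h1]
  rw [Subgroup.relIndex_comap, Subgroup.relIndex_bot_left]

theorem L1 {p : ℕ} [hp : Fact p.Prime] {G : Type*} [Group G] [Finite G] (C : Subgroup G) [C.Normal]
    (h : ∀ P : Subgroup G, IsPGroup p P → ∀ g ∈ Subgroup.normalizer (P : Set G), (orderOf g).Coprime p →
      ∀ v ∈ P, v * g * v⁻¹ * g⁻¹ ∈ C) :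
    ∃ K : Subgroup G, K.Normal ∧ C ≤ K ∧ (C.relIndex K).Coprime p ∧ ∃ n, K.index = p ^ n := by
  have key : HasNormalPComplement p (G ⧸ C) := by
    apply Cfsg.Agent.H2.Fusion3.npc_of_frobenius
    intro Q hQ g hg hgp
    obtain ⟨g0, rfl⟩ := QuotientGroup.mk'_surjective C g
    set H := Q.comap (QuotientGroup.mk' C) with hHdef
    have hCH : C ≤ H := by
      intro x hx
      rw [hHdef, Subgroup.mem_comap]
      have : QuotientGroup.mk' C x = 1 := (QuotientGroup.eq_one_iff x).2 hx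
      rw [this]; exact Q.one_mem
    have hmapH : H.map (QuotientGroup.mk' C) = Q :=
      Subgroup.map_comap_eq_self_of_surjective (QuotientGroup.mk'_surjective C) Q
    have hrel : ∃ n, C.relIndex H = p ^ n := by
      obtain ⟨n, hn⟩ := hQ.exists_card_eq
      refine ⟨n, ?_⟩
      rw [rel_eq, hmapH, hn]
    obtain ⟨T, hT⟩ : ∃ T, Cfsg.Agent.H13.Syl.IsSylIn p T H := Cfsg.Agent.H13.Syl.exists_isSylIn H
    have hsup := sup_eq C hCH hrel hT.le hT.not_dvd
    have hg0 : g0 ∈ normalizer (H : Set G) := by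
      rw [Subgroup.mem_normalizer_iff] at hg ⊢
      intro x
      rw [hHdef, Subgroup.mem_comap, Subgroup.mem_comap]
      rw [hg (QuotientGroup.mk' C x)]
      simp
    obtain ⟨n, hn, m, ⟨-, hm⟩, hg0m⟩ := hT.frattini (H := normalizer (H : Set G)) le_normalizer le_rfl hg0
    rw [← hsup] at hn
    obtain ⟨c, hc, t, ht, rfl⟩ := Subgroup.mem_sup_of_normal_left.1 hn
    have hm' : t * m ∈ normalizer (T : Set G) := Subgroup.mul_mem _ (le_normalizer ht) hm
    have hmk : QuotientGroup.mk' C g0 = QuotientGroup.mk' C (t * m) := by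
      rw [hg0m, mul_assoc, map_mul]
      have : QuotientGroup.mk' C c = 1 := (QuotientGroup.eq_one_iff c).2 hc
      rw [this, one_mul]
    obtain ⟨a, ha, b, hb, hab, hba, ⟨k, hk⟩, hbp⟩ := Cfsg.Agent.H2.Basic.exists_p_decomp p (t * m)
    have ha1 : QuotientGroup.mk' C a = 1 := by
      have e1 : orderOf (QuotientGroup.mk' C a) ∣ p ^ k := hk ▸ orderOf_map_dvd _ _
      have e2 : orderOf (QuotientGroup.mk' C a) ∣ orderOf (QuotientGroup.mk' C g0) := by
        rw [hmk]
        obtain ⟨j, rfl⟩ := ha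
        simp only [map_zpow]
        exact orderOf_dvd_of_mem_zpowers ⟨j, rfl⟩
      have e3 : (orderOf (QuotientGroup.mk' C g0)).Coprime (p ^ k) := Nat.Coprime.pow_right k hgp
      have := Nat.eq_one_of_dvd_coprimes e3 e2 e1
      exact orderOf_eq_one_iff.1 this
    have hmkb : QuotientGroup.mk' C g0 = QuotientGroup.mk' C b := by
      rw [hmk, ← hab, map_mul, ha1, one_mul]
    have hbT : b ∈ normalizer (T : Set G) := (Subgroup.zpowers_le.2 hm') hb
    rw [hmkb, Subgroup.mem_centralizer_iff]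
    intro q hq
    rw [← hmapH] at hq
    obtain ⟨x, hx, rfl⟩ := hq
    change x ∈ H at hx
    rw [← hsup] at hx
    obtain ⟨c', hc', t', ht', rfl⟩ := Subgroup.mem_sup_of_normal_left.1 hx
    have e1 : QuotientGroup.mk' C c' = 1 := (QuotientGroup.eq_one_iff c').2 hc'
    rw [map_mul, e1, one_mul]
    have e2 := h T hT.isPGroup b hbT hbp t' ht'
    have e3 : QuotientGroup.mk' C (t' * b * t'⁻¹ * b⁻¹) = 1 := (QuotientGroup.eq_one_iff _).2 e2
    rw [map_mul, map_mul, map_mul, map_inv, map_inv, mul_inv_eq_one, mul_inv_eq_iff_eq_mul] at e3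
    exact e3
  obtain ⟨N, hN, hc, k, hk⟩ := Cfsg.Agent.H2.Basic.npc_iff.1 key
  refine ⟨N.comap (QuotientGroup.mk' C), inferInstance, ?_, ?_, k, ?_⟩
  · intro x hx
    rw [Subgroup.mem_comap]
    have : QuotientGroup.mk' C x = 1 := (QuotientGroup.eq_one_iff x).2 hx
    rw [this]; exact N.one_mem
  · rw [rel_eq, Subgroup.map_comap_eq_self_of_surjective (QuotientGroup.mk'_surjective C)]
    exact ((Nat.Prime.coprime_iff_not_dvd hp.out).2 hc).symm
  · rw [Subgroup.index_comap_of_surjective _ (QuotientGroup.mk'_surjective C), hk]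

end Cfsg.Agent.H6.CVL1
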