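import Mathlib
import Cfsg.Agent.H17_CV2
import Cfsg.Agent.H6_CVL1
import Cfsg.Agent.H12_CVL6
import Cfsg.Agent.H12_CVL7
import Cfsg.Agent.H3_CVL5
import Cfsg.Agent.H14_CVL2

set_option autoImplicit false
set_option linter.unusedSectionVars false
set_option linter.style.haveILetI false

/-!
S3900, piece NS.
-/

namespace Cfsg.Agent.H14.CVNS

open Cfsg.Agent.H17.CV Cfsg.Agent.H17.CV2

universe u

theorem sol_quot {G : Type u} [Group G] (N : Subgroup G) [N.Normal] (h1 : Group.IsSolvable N)
    (h2 : Group.IsSolvable (G ⧸ N)) : Group.IsSolvable G := by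
  apply Group.isSolvable_of_ker_le_range N.subtype (QuotientGroup.mk' N)
  rw [QuotientGroup.ker_mk', Subgroup.range_subtype]

theorem sol_pquot {G : Type u} [Group G] [Finite G] {p n : ℕ} [Fact p.Prime] (F : Subgroup G) [F.Normal]
    (hF : Group.IsNilpotent F) (h : F.index = p ^ n) : Group.IsSolvable G := by
  have h1 : IsPGroup p (G ⧸ F) := IsPGroup.of_card (n := n) (by rw [← Subgroup.index_eq_card, h])
  haveI := h1.isNilpotent
  haveI := hF
  exact sol_quot F inferInstance inferInstance

theorem le_center {G : Type u} [Group G] [Finite G] (F : Subgroup G)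
    (h : ∀ q : ℕ, q.Prime → ∀ S : Sylow q F, ∀ x ∈ S, (x : G) ∈ Subgroup.center G) : F ≤ Subgroup.center G := by
  rw [← Subgroup.subgroupOf_eq_top, ← Subgroup.index_eq_one]
  by_contra hne
  obtain ⟨q, hq, hdvd⟩ := Nat.exists_prime_and_dvd hne
  haveI : Fact q.Prime := ⟨hq⟩
  obtain ⟨S⟩ : Nonempty (Sylow q F) := inferInstance
  have h1 : (S : Subgroup F) ≤ (Subgroup.center G).subgroupOf F := fun x hx => h q hq S x hx
  exact S.not_dvd_index (hdvd.trans (Subgroup.index_dvd_of_le h1))

theorem NS_aux (k : ℕ)
    (hL4 : ∀ (H : Type u) [Group H] [Finite H], IsSimpleGroup (H ⧸ Subgroup.center H) → ¬ Group.IsSolvable H →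
      ∃ x ∈ V H k, (∃ n, orderOf x = 2 ^ n) ∧ x ∉ Subgroup.center H ∧ x ^ 2 ∈ Subgroup.center H) :
    ∀ (n : ℕ) (G : Type u) [Group G] [Finite G], Nat.card G ≤ n → HA G k → Group.IsSolvable G := by
  intro n
  induction n with
  | zero =>
    intro G _ _ h _
    have := Nat.card_pos (α := G)
    omega
  | succ n ih =>
    intro G _ _ hcard hA
    by_contra hns
    have hsol : ∀ H : Subgroup G, H ≠ ⊤ → Group.IsSolvable H := by
      intro H hH
      apply ih H _ (HA_sub hA H)
      have h1 : Nat.card H < Nat.card G := by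
        rcases Nat.lt_or_ge (Nat.card H) (Nat.card G) with h | h
        · exact h
        · exact absurd (Subgroup.eq_top_of_le_card H h) hH
      omega
    obtain ⟨F, hFn, hFt, hFnil, hFmax⟩ := Cfsg.Agent.H12.CVL7.L7 hsol hns
    haveI := hFn
    have hFc : F ≤ Subgroup.center G := by
      apply le_center
      intro q hq S x hxS
      haveI : Fact q.Prime := ⟨hq⟩
      haveI hSn : (S : Subgroup F).Normal := by
        haveI := hFnil
        have h03 := (Group.isNilpotent_of_finite_tfae (G := F)).out 0 3
        exact h03.mp hFnil q inferInstance S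
      haveI hSc : (S : Subgroup F).Characteristic := S.characteristic_of_normal hSn
      set Fq : Subgroup G := (S : Subgroup F).map F.subtype with hFq
      haveI hFqn : Fq.Normal := ConjAct.normal_of_characteristic_of_normal
      have hFqp : IsPGroup q Fq := S.isPGroup'.map F.subtype
      have hxF : (x : G) ∈ Fq := ⟨x, hxS, rfl⟩
      set C : Subgroup G := Subgroup.centralizer (Fq : Set G) with hC
      haveI hCn : C.Normal := inferInstance
      by_cases hex : ∃ p : ℕ, p.Prime ∧ p ≠ q ∧ ∃ y ∈ V G k, (∃ j, orderOf y = p ^ j) ∧ y ∉ F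
      · obtain ⟨p, hp, hpq, y, hyV, ⟨j, hj⟩, hyF⟩ := hex
        have hyC : y ∈ C := by
          rw [hC, Subgroup.mem_centralizer_iff]
          intro z hz
          have hcz : y * z * y⁻¹ * z⁻¹ ∈ Fq := mul_mem (hFqn.conj_mem z hz y) (inv_mem hz)
          obtain ⟨i, hi⟩ := hFqp ⟨_, hcz⟩
          have hi' : (y * z * y⁻¹ * z⁻¹) ^ q ^ i = 1 := congrArg Subtype.val hi
          have hcop : (orderOf y).Coprime (orderOf (y * z * y⁻¹ * z⁻¹)) := by
            rw [hj]
            apply Nat.Coprime.coprime_dvd_right (orderOf_dvd_of_pow_eq_one hi')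
            exact Nat.Coprime.pow _ _ ((Nat.coprime_primes hp hq).2 hpq)
          exact (hA y hyV z hcop).symm
        have hCt : C = ⊤ := by
          by_contra hCne
          exact hyF (hFmax C hCn hCne hyC)
        have h1 : (Fq : Set G) ⊆ Subgroup.center G := Subgroup.centralizer_eq_top_iff_subset.1 hCt
        exact h1 hxF
      · exfalso
        push Not at hex
        -- every prime different from q
        have hK : ∀ p : ℕ, p.Prime → p ≠ q → ¬ p ∣ F.index := by
          intro p hp hpq hdvd
          haveI : Fact p.Prime := ⟨hp⟩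
          obtain ⟨K, hKn, hFK, hcop, i, hi⟩ := Cfsg.Agent.H6.CVL1.L1 (p := p) F (by
            intro P hP g hg hgp v hv
            apply Cfsg.Agent.H14.CVL2.L2 F P hP g hg hgp v hv k
            have hmem : ∀ n : ℕ, (fun a => a * g * a⁻¹ * g⁻¹)^[n] v ∈ P := by
              intro n
              induction n with
              | zero => exact hv
              | succ n ihn =>
                rw [Function.iterate_succ_apply']
                have h1 : g * ((fun a => a * g * a⁻¹ * g⁻¹)^[n] v)⁻¹ * g⁻¹ ∈ P :=
                  (Subgroup.mem_normalizer_iff.1 hg _).1 (inv_mem ihn)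
                have h2 := mul_mem ihn h1
                simpa [mul_assoc] using h2
            obtain ⟨j, hj⟩ := IsPGroup.iff_orderOf.1 hP ⟨_, hmem k⟩
            have hj' : orderOf ((fun a => a * g * a⁻¹ * g⁻¹)^[k] v) = p ^ j := by
              rw [← hj]
              exact (Subgroup.orderOf_mk _ (hmem k)).symm
            exact hex p hp hpq _ (V_iter k v g) ⟨j, hj'⟩)
          by_cases hKt : K = ⊤
          · rw [hKt, Subgroup.relIndex_top_right] at hcop
            have := Nat.dvd_gcd hdvd dvd_rfl
            rw [hcop] at this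
            exact hp.one_lt.ne' (Nat.dvd_one.1 this)
          · have hKF : K = F := le_antisymm (hFmax K hKn hKt) hFK
            rw [hKF] at hi
            exact hns (sol_pquot F hFnil hi)
        have hidx : ∃ n, F.index = q ^ n := by
          have h0 : F.index ≠ 0 := Subgroup.index_ne_zero_of_finite
          refine ⟨F.index.primeFactorsList.length, ?_⟩
          apply Nat.eq_prime_pow_of_unique_prime_dvd h0
          intro d hd hdd
          by_contra hne
          exact hK d hd hne hdd
        obtain ⟨i, hi⟩ := hidx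
        exact hns (sol_pquot F hFnil hi)
    have hcen : ∀ N : Subgroup G, N.Normal → N ≠ ⊤ → N ≤ Subgroup.center G := fun N hN hNt =>
      (hFmax N hN hNt).trans hFc
    have hz : IsSimpleGroup (G ⧸ Subgroup.center G) := Cfsg.Agent.H12.CVL6.L6 hns hcen
    obtain ⟨x, hxV, ⟨i, hi⟩, hxZ, hx2⟩ := hL4 G hz hns
    obtain ⟨y, hodd, hne⟩ := Cfsg.Agent.H3.CVL5.L5 x i hi hxZ hx2 hz hns
    apply hne
    apply hA x hxV y
    rw [hi]
    exact Nat.Coprime.pow_left i (Nat.coprime_two_left.2 hodd)

end Cfsg.Agent.H14.CVNS
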