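import Mathlib
import Cfsg.Agent.H14_StI
import Cfsg.Agent.H1_Coprime

set_option autoImplicit false
set_option linter.unusedSectionVars false

/-!
Values of the Steinberg character: general lemmas on cosets of `p`-groups.
-/

namespace Cfsg.Agent.H14.StGen

open scoped Pointwise

/-- a `p`-regular element of `sN` is conjugate to `s` under the `p`-group `N` -/
theorem preg_coset {G : Type*} [Group G] [Finite G] {p : ℕ} [hp : Fact p.Prime] {N : Subgroup G} (hN : IsPGroup p N) {s : G}
    (hs : s ∈ Subgroup.normalizer (N : Set G)) (hsp : ¬ p ∣ orderOf s) {u : G} (hu : u ∈ N) (h : ¬ p ∣ orderOf (s * u)) :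
    ∃ k ∈ N, k * s * k⁻¹ = s * u := by
  have hcopN : ∀ t : G, ¬ p ∣ orderOf t → (Nat.card (Subgroup.zpowers t)).Coprime (Nat.card N) := by
    intro t ht
    obtain ⟨n, hn⟩ := IsPGroup.iff_card.1 hN
    rw [hn, Nat.card_zpowers]
    exact Nat.Coprime.pow_right n ((Nat.Prime.coprime_iff_not_dvd hp.out).2 ht).symm
  have hsu : s * u ∈ Subgroup.normalizer (N : Set G) := mul_mem hs (Subgroup.le_normalizer hu)
  -- orders agree
  have hord : ∀ t t' : G, t' ∈ Subgroup.normalizer (N : Set G) → t ∈ Subgroup.normalizer (N : Set G) → t'⁻¹ * t ∈ N → ¬ p ∣ orderOf t → orderOf t ∣ orderOf t' := by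
    intro t t' ht'n htn htt ht
    have h1 : t ^ orderOf t' ∈ N := by
      have key : ∀ k : ℕ, ∃ v ∈ N, t ^ k = t' ^ k * v := by
        intro k
        induction k with
        | zero => exact ⟨1, one_mem _, by simp⟩
        | succ k ih =>
          obtain ⟨v, hv, hk⟩ := ih
          refine ⟨(t'⁻¹ * v * t') * (t'⁻¹ * t), mul_mem ?_ htt, ?_⟩
          · have := (Subgroup.mem_normalizer_iff.1 (Subgroup.inv_mem _ ht'n) v).1 hv
            rwa [inv_inv] at this
          · rw [pow_succ, hk, pow_succ]; group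
      obtain ⟨v, hv, hk⟩ := key (orderOf t')
      rw [hk, pow_orderOf_eq_one, one_mul]
      exact hv
    have h2 : t ^ orderOf t' ∈ Subgroup.zpowers t ⊓ N := ⟨pow_mem (Subgroup.mem_zpowers t) _, h1⟩
    rw [Subgroup.inf_eq_bot_of_coprime (hcopN t ht), Subgroup.mem_bot] at h2
    exact orderOf_dvd_of_pow_eq_one h2
  have ho : orderOf (s * u) = orderOf s := by
    apply Nat.dvd_antisymm
    · apply hord _ _ hs hsu _ h
      rw [inv_mul_cancel_left]; exact hu
    · apply hord _ _ hsu hs _ hsp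
      have : (s * u)⁻¹ * s = u⁻¹ := by group
      rw [this]; exact Subgroup.inv_mem _ hu
  obtain ⟨k, hk, hconj⟩ := Cfsg.Agent.H1.Coprime.sz_internal (A := Subgroup.zpowers s) (B := Subgroup.zpowers (s * u)) (K := N)
    (by rw [Subgroup.zpowers_le]; exact hs)
    (by
      rw [Subgroup.zpowers_le]
      exact mul_mem (Subgroup.mem_sup_left (Subgroup.mem_zpowers s)) (Subgroup.mem_sup_right hu))
    (by rw [Nat.card_zpowers, Nat.card_zpowers, ho]) (hcopN s hsp) (Or.inl (by infer_instance))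
  refine ⟨k, hk, ?_⟩
  have h1 : k * s * k⁻¹ ∈ Subgroup.zpowers (s * u) := by
    rw [← hconj]
    exact ⟨s, Subgroup.mem_zpowers s, rfl⟩
  have h2 : (s * u)⁻¹ * (k * s * k⁻¹) ∈ Subgroup.zpowers (s * u) ⊓ N := by
    refine Subgroup.mem_inf.2 ⟨Subgroup.mul_mem _ (Subgroup.inv_mem _ (Subgroup.mem_zpowers _)) h1, ?_⟩
    have e : (s * u)⁻¹ * (k * s * k⁻¹) = u⁻¹ * (s⁻¹ * k * s) * k⁻¹ := by group
    rw [e]
    have := (Subgroup.mem_normalizer_iff.1 (Subgroup.inv_mem _ hs) k).1 hk
    rw [inv_inv] at this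
    exact Subgroup.mul_mem _ (Subgroup.mul_mem _ (Subgroup.inv_mem _ hu) this) (Subgroup.inv_mem _ hk)
  rw [Subgroup.inf_eq_bot_of_coprime (hcopN _ h), Subgroup.mem_bot] at h2
  exact (inv_mul_eq_one.1 h2).symm

/-- summing a class function vanishing on `p`-singular elements over `sN` -/
theorem sum_coset {G : Type*} [Group G] [Finite G] {p : ℕ} [hp : Fact p.Prime] {N : Subgroup G} [Fintype N] (hN : IsPGroup p N) {s : G}
    (hs : s ∈ Subgroup.normalizer (N : Set G)) (hsp : ¬ p ∣ orderOf s) (χ : G → ℂ) (hχ : ∀ x y : G, χ (y * x * y⁻¹) = χ x)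
    (hv : ∀ x, p ∣ orderOf x → χ x = 0) :
    (Nat.card {u : N // (u : G) * s = s * u} : ℂ) * ∑ u : N, χ (s * u) = (Nat.card N : ℂ) * χ s := by
  classical
  let φ : N → N := fun k => ⟨s⁻¹ * k * s * (k : G)⁻¹, by
    have := (Subgroup.mem_normalizer_iff.1 (inv_mem hs) (k : G)).1 k.2
    rw [inv_inv] at this
    exact mul_mem this (inv_mem k.2)⟩
  have h1 : ∑ k : N, χ (s * φ k) = (Nat.card N : ℂ) * χ s := by
    have : ∀ k : N, χ (s * φ k) = χ s := by
      intro k
      have e : s * (φ k : G) = k * s * (k : G)⁻¹ := by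
        change s * (s⁻¹ * k * s * (k : G)⁻¹) = _
        group
      rw [e, hχ]
    rw [Finset.sum_congr rfl (fun k _ => this k), Finset.sum_const, Finset.card_univ, nsmul_eq_mul, Nat.card_eq_fintype_card]
  rw [← h1, Finset.sum_comp (fun u : N => χ (s * u)) φ]
  have hfib : ∀ u ∈ Finset.univ.image φ, (Finset.univ.filter (fun k => φ k = u)).card = Nat.card {u : N // (u : G) * s = s * u} := by
    intro u hu
    rw [Finset.mem_image] at hu
    obtain ⟨k0, -, rfl⟩ := hu
    rw [← Fintype.card_subtype, ← Nat.card_eq_fintype_card]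
    apply Nat.card_congr
    have hiff : ∀ k : N, φ k = φ k0 ↔ ((k0⁻¹ * k : N) : G) * s = s * ((k0⁻¹ * k : N) : G) := by
      intro k
      rw [Subtype.ext_iff]
      change s⁻¹ * (k : G) * s * (k : G)⁻¹ = s⁻¹ * (k0 : G) * s * (k0 : G)⁻¹ ↔ (k0 : G)⁻¹ * k * s = s * ((k0 : G)⁻¹ * k)
      constructor
      · intro h
        have h3 : (k : G) * s * (k : G)⁻¹ = k0 * s * (k0 : G)⁻¹ := by
          have := congrArg (s * ·) h
          have e1 : s * (s⁻¹ * (k : G) * s * (k : G)⁻¹) = (k : G) * s * (k : G)⁻¹ := by group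
          have e2 : s * (s⁻¹ * (k0 : G) * s * (k0 : G)⁻¹) = (k0 : G) * s * (k0 : G)⁻¹ := by group
          rw [← e1, ← e2]; exact this
        calc (k0 : G)⁻¹ * k * s = (k0 : G)⁻¹ * ((k : G) * s * (k : G)⁻¹) * k := by group
          _ = (k0 : G)⁻¹ * (k0 * s * (k0 : G)⁻¹) * k := by rw [h3]
          _ = _ := by group
      · intro h
        have h3 : (k : G) * s * (k : G)⁻¹ = k0 * s * (k0 : G)⁻¹ := by
          calc (k : G) * s * (k : G)⁻¹ = k0 * ((k0 : G)⁻¹ * k * s) * (k : G)⁻¹ := by group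
            _ = k0 * (s * ((k0 : G)⁻¹ * k)) * (k : G)⁻¹ := by rw [h]
            _ = _ := by group
        calc s⁻¹ * (k : G) * s * (k : G)⁻¹ = s⁻¹ * ((k : G) * s * (k : G)⁻¹) := by group
          _ = s⁻¹ * (k0 * s * (k0 : G)⁻¹) := by rw [h3]
          _ = _ := by group
    exact
      { toFun := fun k => ⟨k0⁻¹ * k.1, (hiff k.1).1 k.2⟩
        invFun := fun c => ⟨k0 * c.1, (hiff _).2 (by rw [inv_mul_cancel_left]; exact c.2)⟩
        left_inv := fun k => Subtype.ext (by simp)
        right_inv := fun c => Subtype.ext (by simp) }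
  have h2 : ∑ u ∈ Finset.univ.image φ, (Finset.univ.filter (fun k => φ k = u)).card • χ (s * u) =
      ∑ u ∈ Finset.univ.image φ, (Nat.card {u : N // (u : G) * s = s * u} : ℂ) * χ (s * u) :=
    Finset.sum_congr rfl (fun u hu => by rw [hfib u hu, nsmul_eq_mul])
  rw [h2, ← Finset.mul_sum]
  congr 1
  symm
  apply Finset.sum_subset (Finset.subset_univ _)
  intro u _ hu
  apply hv
  by_contra hnd
  obtain ⟨k, hk, he⟩ := preg_coset hN hs hsp u.2 hnd
  apply hu
  rw [Finset.mem_image]
  refine ⟨⟨k, hk⟩, Finset.mem_univ _, Subtype.ext ?_⟩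
  change s⁻¹ * k * s * k⁻¹ = u
  calc s⁻¹ * k * s * k⁻¹ = s⁻¹ * (k * s * k⁻¹) := by group
    _ = s⁻¹ * (s * u) := by rw [he]
    _ = u := by group

/-- a product of commuting nontrivial `p`-element and `p`-regular element is `p`-singular -/
theorem dvd_orderOf_mul {G : Type*} [Group G] [Finite G] {p : ℕ} [hp : Fact p.Prime] {s x : G} (hc : Commute s x) (hsp : ¬ p ∣ orderOf s)
    (hx : x ≠ 1) (hxp : ∃ k : ℕ, x ^ p ^ k = 1) : p ∣ orderOf (s * x) := by
  by_contra hnd
  obtain ⟨k, hk⟩ := hxp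
  have h1 : (s * x) ^ p ^ k = s ^ p ^ k := by rw [hc.mul_pow, hk, mul_one]
  have h2 : (s * x) ^ (p ^ k * orderOf s) = 1 := by rw [pow_mul, h1, ← pow_mul, mul_comm, pow_mul, pow_orderOf_eq_one, one_pow]
  have h3 : orderOf (s * x) ∣ p ^ k * orderOf s := orderOf_dvd_of_pow_eq_one h2
  have h4 : (orderOf (s * x)).Coprime (p ^ k) := Nat.Coprime.pow_right k ((Nat.Prime.coprime_iff_not_dvd hp.out).2 hnd).symm
  have h5 : orderOf (s * x) ∣ orderOf s := h4.dvd_of_dvd_mul_left h3
  have h6 : (s * x) ^ orderOf s = 1 := orderOf_dvd_iff_pow_eq_one.1 h5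
  rw [hc.mul_pow, pow_orderOf_eq_one, one_mul] at h6
  have h7 : orderOf x ∣ orderOf s := orderOf_dvd_of_pow_eq_one h6
  have h8 : orderOf x ∣ p ^ k := orderOf_dvd_of_pow_eq_one hk
  have h9 : (orderOf s).Coprime (p ^ k) := Nat.Coprime.pow_right k ((Nat.Prime.coprime_iff_not_dvd hp.out).2 hsp).symm
  have h10 : orderOf x ∣ 1 := by
    have := Nat.dvd_gcd h7 h8
    rwa [h9] at this
  rw [Nat.dvd_one, orderOf_eq_one_iff] at h10
  exact hx h10

/-- divisibility of the sum of fixed point numbers over `sP` -/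
theorem dvd_sum_fix {G X : Type*} [Group G] [Finite G] [MulAction G X] [Finite X] (P : Subgroup G) [Fintype P] {s : G}
    (hs : ∀ x ∈ P, s * x = x * s) : Nat.card P ∣ ∑ x : P, Nat.card (MulAction.fixedBy X (s * x)) := by
  classical
  have := Fintype.ofFinite X
  have h1 : ∑ x : P, Nat.card (MulAction.fixedBy X (s * (x : G))) = ∑ y : X, (Finset.univ.filter (fun x : P => (s * (x : G)) • y = y)).card := by
    have : ∀ x : P, Nat.card (MulAction.fixedBy X (s * (x : G))) = ∑ y : X, if (s * (x : G)) • y = y then 1 else 0 := by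
      intro x
      rw [← Finset.card_filter, ← Fintype.card_subtype, ← Nat.card_eq_fintype_card]
      rfl
    rw [Finset.sum_congr rfl (fun x _ => this x), Finset.sum_comm]
    apply Finset.sum_congr rfl
    intro y _
    rw [Finset.card_filter]
  rw [h1]
  have : Fintype (Quotient (MulAction.orbitRel P X)) := Fintype.ofFinite _
  have : ∀ ω : Quotient (MulAction.orbitRel P X), Fintype (MulAction.orbitRel.Quotient.orbit ω) := fun ω => Fintype.ofFinite _
  rw [← Equiv.sum_comp (MulAction.selfEquivSigmaOrbits' P X).symm, Fintype.sum_sigma]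
  apply Finset.dvd_sum
  intro ω _
  obtain ⟨y0, hy0⟩ : ∃ y0 : X, y0 ∈ MulAction.orbitRel.Quotient.orbit ω := by
    obtain ⟨y, rfl⟩ := Quotient.exists_rep ω
    exact ⟨y, MulAction.mem_orbit_self y⟩
  have horb : MulAction.orbitRel.Quotient.orbit ω = MulAction.orbit P y0 := by
    obtain ⟨y, rfl⟩ := Quotient.exists_rep ω
    rw [MulAction.orbitRel.Quotient.orbit_mk] at hy0 ⊢
    exact (MulAction.orbit_eq_iff.2 hy0).symm
  have hconst : ∀ y : MulAction.orbitRel.Quotient.orbit ω,
      (Finset.univ.filter (fun x : P => (s * (x : G)) • ((MulAction.selfEquivSigmaOrbits' P X).symm ⟨ω, y⟩ : X) = ((MulAction.selfEquivSigmaOrbits' P X).symm ⟨ω, y⟩ : X))).card =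
        (Finset.univ.filter (fun x : P => (s * (x : G)) • y0 = y0)).card := by
    intro y
    have hy : ((MulAction.selfEquivSigmaOrbits' P X).symm ⟨ω, y⟩ : X) = y.1 := rfl
    rw [hy]
    have hy2 : y.1 ∈ MulAction.orbit P y0 := by rw [← horb]; exact y.2
    obtain ⟨g, hg⟩ := hy2
    have hg' : y.1 = (g : G) • y0 := hg.symm
    rw [hg']
    refine Finset.card_bij' (fun x _ => g⁻¹ * x * g) (fun x _ => g * x * g⁻¹) ?_ ?_ ?_ ?_
    · intro x hx
      rw [Finset.mem_filter] at hx ⊢
      refine ⟨Finset.mem_univ _, ?_⟩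
      have h2 := hx.2
      have e : (g : G)⁻¹ * (s * x) * g = s * ((g⁻¹ * x * g : P) : G) := by
        have := hs (g : G)⁻¹ (inv_mem g.2)
        simp only [Subgroup.coe_mul, Subgroup.coe_inv]
        calc (g : G)⁻¹ * (s * x) * g = ((g : G)⁻¹ * s) * x * g := by group
          _ = (s * (g : G)⁻¹) * x * g := by rw [this]
          _ = _ := by group
      rw [← e, mul_smul, mul_smul, h2, inv_smul_smul]
    · intro x hx
      rw [Finset.mem_filter] at hx ⊢
      refine ⟨Finset.mem_univ _, ?_⟩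
      have h2 := hx.2
      have e : s * ((g * x * g⁻¹ : P) : G) = (g : G) * (s * x) * (g : G)⁻¹ := by
        have := hs (g : G) g.2
        simp only [Subgroup.coe_mul, Subgroup.coe_inv]
        calc s * ((g : G) * x * (g : G)⁻¹) = (s * g) * x * (g : G)⁻¹ := by group
          _ = (g * s) * x * (g : G)⁻¹ := by rw [this]
          _ = _ := by group
      rw [e, mul_smul, inv_smul_smul, mul_smul, h2]
    · intro x _; simp [mul_assoc]
    · intro x _; simp [mul_assoc]
  rw [Finset.sum_congr rfl (fun y _ => hconst y), Finset.sum_const, Finset.card_univ, smul_eq_mul]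
  by_cases hne : ∃ x0 : P, (s * (x0 : G)) • y0 = y0
  · obtain ⟨x0, hx0⟩ := hne
    have h2 : (Finset.univ.filter (fun x : P => (s * (x : G)) • y0 = y0)).card = Nat.card (MulAction.stabilizer P y0) := by
      rw [← Fintype.card_subtype, ← Nat.card_eq_fintype_card]
      symm
      apply Nat.card_congr
      refine
        { toFun := fun c => ⟨x0 * c.1, ?_⟩
          invFun := fun x => ⟨x0⁻¹ * x.1, ?_⟩
          left_inv := fun c => Subtype.ext (by simp)
          right_inv := fun c => Subtype.ext (by simp) }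
      · have hc : (c.1 : G) • y0 = y0 := c.2
        rw [Subgroup.coe_mul, ← mul_assoc, mul_smul, hc]
        exact hx0
      · have hx : (s * (x.1 : G)) • y0 = y0 := x.2
        change ((x0⁻¹ * x.1 : P) : G) • y0 = y0
        have e : ((x0⁻¹ * x.1 : P) : G) = (s * (x0 : G))⁻¹ * (s * x.1) := by
          simp only [Subgroup.coe_mul, Subgroup.coe_inv]; group
        rw [e, mul_smul, hx, inv_smul_eq_iff, hx0]
    rw [h2]
    have h3 : Fintype.card (MulAction.orbitRel.Quotient.orbit ω) = Nat.card (MulAction.orbit P y0) := by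
      rw [← Nat.card_eq_fintype_card, horb]
    rw [h3]
    have h4 := Nat.card_congr (MulAction.orbitProdStabilizerEquivGroup P y0)
    rw [Nat.card_prod] at h4
    rw [h4]
  · have h2 : Finset.univ.filter (fun x : P => (s * (x : G)) • y0 = y0) = ∅ := by
      rw [Finset.filter_eq_empty_iff]
      intro x _ hx
      exact hne ⟨x, hx⟩
    rw [h2]; simp

end Cfsg.Agent.H14.StGen
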