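import Mathlib
import Cfsg.Agent.H14_StM

set_option autoImplicit false
set_option linter.unusedSectionVars false

/-!
The restriction of the Steinberg character to a parabolic subgroup, part 3: the restriction formula.
-/

namespace Cfsg.Agent.H14.Chev

open Cfsg Cfsg.Lie Cfsg.Lie.ChevalleyDatum Cfsg.Agent.H6 Cfsg.Agent.H6.Chev Cfsg.Agent.H6.Chev.Model
open scoped Matrix Pointwise

/-- toggling lemma -/
theorem alt_toggle (S A : Finset ℕ) (f : Finset ℕ → ℂ) {k : ℕ} (hk : k ∈ S) (hkA : k ∉ A) :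
    ∑ K ∈ S.powerset, (-1 : ℂ) ^ K.card * f (K ∩ A) = 0 := by
  classical
  obtain ⟨T, hkT, rfl⟩ : ∃ T : Finset ℕ, k ∉ T ∧ S = insert k T := ⟨S.erase k, Finset.notMem_erase k S, (Finset.insert_erase hk).symm⟩
  rw [Finset.sum_powerset_insert hkT, ← Finset.sum_add_distrib]
  apply Finset.sum_eq_zero
  intro K hK
  have hkK : k ∉ K := fun h => hkT (Finset.mem_powerset.1 hK h)
  rw [Finset.card_insert_of_notMem hkK, Finset.insert_inter_of_notMem hkA]
  ring

/-- transport of an alternating sum along a bijection -/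
theorem alt_transport {S J : Finset ℕ} (r : ℕ → ℕ → Prop) (h1 : ∀ k ∈ S, ∃ j ∈ J, r k j) (h2 : ∀ j ∈ J, ∃ k ∈ S, r k j)
    (h3 : ∀ k j j', r k j → r k j' → j = j') (h4 : ∀ k k' j, r k j → r k' j → k = k') (f g : Finset ℕ → ℂ)
    (hfg : ∀ K ⊆ S, ∀ K' ⊆ J, (∀ k ∈ K, ∃ j ∈ K', r k j) → (∀ j ∈ K', ∃ k ∈ K, r k j) → f K = g K') :
    ∑ K ∈ S.powerset, (-1 : ℂ) ^ K.card * f K = ∑ K' ∈ J.powerset, (-1 : ℂ) ^ K'.card * g K' := by
  classical
  choose! e he1 he2 using h1
  choose! e' he1' he2' using h2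
  have hee : ∀ k ∈ S, e' (e k) = k := fun k hk => h4 _ _ (e k) (he2' _ (he1 k hk)) (he2 k hk)
  have hee' : ∀ j ∈ J, e (e' j) = j := fun j hj => h3 (e' j) _ _ (he2 _ (he1' j hj)) (he2' j hj)
  refine Finset.sum_nbij' (fun K => K.image e) (fun K' => K'.image e') ?_ ?_ ?_ ?_ ?_
  · intro K hK
    rw [Finset.mem_powerset] at hK ⊢
    intro j hj
    obtain ⟨k, hk, rfl⟩ := Finset.mem_image.1 hj
    exact he1 k (hK hk)
  · intro K hK
    rw [Finset.mem_powerset] at hK ⊢
    intro j hj
    obtain ⟨k, hk, rfl⟩ := Finset.mem_image.1 hj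
    exact he1' k (hK hk)
  · intro K hK
    rw [Finset.mem_powerset] at hK
    ext k
    simp only [Finset.mem_image]
    constructor
    · rintro ⟨_, ⟨k', hk', rfl⟩, rfl⟩
      rw [hee k' (hK hk')]; exact hk'
    · intro hk
      exact ⟨e k, ⟨k, hk, rfl⟩, hee k (hK hk)⟩
  · intro K hK
    rw [Finset.mem_powerset] at hK
    ext k
    simp only [Finset.mem_image]
    constructor
    · rintro ⟨_, ⟨k', hk', rfl⟩, rfl⟩
      rw [hee' k' (hK hk')]; exact hk'
    · intro hk
      exact ⟨e' k, ⟨k, hk, rfl⟩, hee' k (hK hk)⟩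
  · intro K hK
    rw [Finset.mem_powerset] at hK
    have hcard : (K.image e).card = K.card := by
      apply Finset.card_image_of_injOn
      intro a ha b hb hab
      rw [← hee a (hK ha), ← hee b (hK hb), hab]
    rw [hcard, hfg K hK (K.image e)]
    · intro j hj
      obtain ⟨k, hk, rfl⟩ := Finset.mem_image.1 hj
      exact he1 k (hK hk)
    · intro k hk
      exact ⟨e k, Finset.mem_image_of_mem _ hk, he2 k (hK hk)⟩
    · intro j hj
      obtain ⟨k, hk, rfl⟩ := Finset.mem_image.1 hj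
      exact ⟨k, hk, he2 k (hK hk)⟩

variable {D : ChevalleyDatum} {F : Type*} [Field F] (m : Model D)

theorem asc_subset (w : Equiv.Perm (Fin D.nroots)) : asc m w ⊆ Finset.range D.rank := by
  unfold asc; exact Finset.filter_subset _ _

/-- the Levi subgroup inside the group -/
abbrev LevG (D : ChevalleyDatum) (F : Type*) [Field F] (J : Finset ℕ) : Subgroup ↥(D.group F) :=
  (D.leviSubgroup F (J : Set ℕ)).subgroupOf (D.group F)

include m in
/-- the restriction formula for the Steinberg character -/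
theorem steinberg_restrict [Finite F] {J : Finset ℕ} (hJ : J ⊆ Finset.range D.rank) {x : ↥(D.group F)} (hx : x ∈ D.parabolicIn F J) :
    D.steinbergCharacter F x = (Nat.card (FixIn (D.parabolicIn F J) (LevG D F J) x) : ℂ) * stJ D F J x := by
  classical
  obtain ⟨d0, hd0, hF3, hF4⟩ := exists_oppJ m (J : Set ℕ)
  have hst : D.steinbergCharacter F x = ∑ d : Equiv.Perm (Fin D.nroots),
      if (d ∈ m.Wg ∧ UpJ m d⁻¹ (J : Set ℕ)) then ∑ K ∈ (asc m d).powerset, (-1 : ℂ) ^ K.card * (Nat.card (FixIn (D.parabolicIn F J) (QJ m F J (K ∩ AJ m J d) d) x) : ℂ) else 0 := by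
    unfold ChevalleyDatum.steinbergCharacter
    have h1 : ∀ K ∈ (Finset.range D.rank).powerset, (-1 : ℂ) ^ K.card * fixedPointCharacter (D.parabolicIn F K) x =
        ∑ d : Equiv.Perm (Fin D.nroots), if MinDC m (J : Set ℕ) (K : Set ℕ) d then
          (-1 : ℂ) ^ K.card * (Nat.card (FixIn (D.parabolicIn F J) (QJ m F J (K ∩ AJ m J d) d) x) : ℂ) else 0 := by
      intro K hK
      unfold fixedPointCharacter
      rw [card_fixed_mackey m hx, Nat.cast_sum, Finset.mul_sum, ← Finset.sum_filter]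
      rw [← Finset.sum_subtype (Finset.univ.filter fun d => MinDC m (J : Set ℕ) (K : Set ℕ) d) (p := fun d => MinDC m (J : Set ℕ) (K : Set ℕ) d)
        (fun d => by simp) (fun d => (-1 : ℂ) ^ K.card * (Nat.card (FixIn (D.parabolicIn F J) (QJ m F J K d) x) : ℂ))]
      apply Finset.sum_congr rfl
      intro d hd
      rw [Finset.mem_filter] at hd
      rw [QJ_inter m hd.2]
    rw [Finset.sum_congr rfl h1, Finset.sum_comm]
    apply Finset.sum_congr rfl
    intro d _
    rw [← Finset.sum_filter]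
    split_ifs with hd
    · apply Finset.sum_congr ?_ (fun _ _ => rfl)
      ext K
      rw [Finset.mem_filter, Finset.mem_powerset, Finset.mem_powerset]
      constructor
      · rintro ⟨hK, h⟩
        exact (UpJ_iff m hK).1 h.2.1
      · intro h
        have hK := h.trans (asc_subset m d)
        exact ⟨hK, hd.1, (UpJ_iff m hK).2 h, hd.2⟩
    · apply Finset.sum_eq_zero
      intro K hK
      rw [Finset.mem_filter] at hK
      exact absurd ⟨hK.2.1, hK.2.2.2⟩ hd
  rw [hst, Finset.sum_eq_single d0]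
  · rw [if_pos ⟨hd0.1, hd0.2.1⟩]
    unfold stJ
    rw [Finset.mul_sum]
    have h2 : ∑ K' ∈ J.powerset, (Nat.card (FixIn (D.parabolicIn F J) (LevG D F J) x) : ℂ) * ((-1 : ℂ) ^ K'.card * (Nat.card (FixIn (D.parabolicIn F J) (D.parabolicIn F K') x) : ℂ)) =
        ∑ K' ∈ J.powerset, (-1 : ℂ) ^ K'.card * ((Nat.card (FixIn (D.parabolicIn F J) (LevG D F J) x) * Nat.card (FixIn (D.parabolicIn F J) (D.parabolicIn F K') x) : ℕ) : ℂ) := by
      apply Finset.sum_congr rfl
      intro K' _
      push_cast; ring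
    rw [h2]
    refine alt_transport (fun k j => ∃ (hk : k < D.rank) (hj : j < D.rank), d0 (m.p ⟨k, hk⟩) = m.p ⟨j, hj⟩) ?_ ?_ ?_ ?_
      (fun K => (Nat.card (FixIn (D.parabolicIn F J) (QJ m F J (K ∩ AJ m J d0) d0) x) : ℂ)) _ ?_
    · intro k hk
      unfold asc at hk
      rw [Finset.mem_filter] at hk
      obtain ⟨hkr, hpos⟩ := hk.2
      obtain ⟨j, hj, h⟩ := hd0.2.2 ⟨k, hkr⟩ hpos
      exact ⟨j, hj, hkr, j.2, h⟩
    · intro j hj
      have hjr := Finset.mem_range.1 (hJ hj)
      obtain ⟨k, hk⟩ := hF4 ⟨j, hjr⟩ hj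
      refine ⟨k, ?_, k.2, hjr, hk⟩
      unfold asc
      rw [Finset.mem_filter]
      refine ⟨Finset.mem_range.2 k.2, k.2, ?_⟩
      have : (⟨(k : ℕ), k.2⟩ : Fin D.rank) = k := rfl
      rw [this, hk]
      exact m.p_pos _
    · rintro k j j' ⟨hk, hj, h⟩ ⟨_, hj', h'⟩
      have := m.p_inj (h.symm.trans h')
      exact congrArg Fin.val this
    · rintro k k' j ⟨hk, hj, h⟩ ⟨hk', _, h'⟩
      have := m.p_inj (d0.injective (h.trans h'.symm))
      exact congrArg Fin.val this
    · intro K hK K' hK' h1 h2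
      have hKr := hK.trans (asc_subset m d0)
      have e1 : K ∩ AJ m J d0 = K := by
        rw [Finset.inter_eq_left]
        intro k hk
        obtain ⟨j, hj, hkr, hjr, h⟩ := h1 k hk
        unfold AJ
        rw [Finset.mem_filter]
        exact ⟨Finset.mem_range.2 hkr, hkr, ⟨j, hjr⟩, hK' hj, h⟩
      rw [e1]
      congr 1
      rw [levi_QJ m (K := K) (K' := K') hd0 hF3]
      · apply fixIn_inf
        · intro y hy
          exact levi_le_parabolic m _ hy
        · intro y hy
          exact parabolic_mono m (J := (J : Set ℕ)) (K := (K' : Set ℕ)) (by exact_mod_cast hK') hy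
        · intro y hy
          have hy' : (y : GL D.Idx F) ∈ D.unipotentRadical F (J : Set ℕ) ⊔ D.leviSubgroup F (J : Set ℕ) := by
            rw [m.radical_sup_levi]; exact hy
          rw [sup_comm, mem_sup_norm (le_trans (levi_le_parabolic m _) (m.parabolic_norm _))] at hy'
          obtain ⟨l0, hl0, u0, hu0, he⟩ := hy'
          refine ⟨⟨l0, m.parabolic_le_G _ (levi_le_parabolic m _ hl0)⟩, hl0, ⟨u0, m.B_le_G (U_le_B (m.radical_le_U _ hu0))⟩, ?_, Subtype.ext he⟩
          exact m.B_le_parabolic _ (U_le_B (m.radical_le_U _ hu0))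
      · intro k hk
        obtain ⟨j, hj, hkr, hjr, h⟩ := h1 k hk
        exact ⟨⟨j, hjr⟩, hj, h⟩
      · intro j hj
        obtain ⟨k, hk, hkr, hjr, h⟩ := h2 j hj
        exact ⟨⟨k, hkr⟩, hk, h⟩
  · intro d _ hne
    split_ifs with hd
    · by_cases hsub : asc m d ⊆ AJ m J d
      · exfalso
        apply hne
        refine oppJ_unique m (J := (J : Set ℕ)) ⟨hd.1, hd.2, ?_⟩ hd0
        intro k hk
        have h1 : (k : ℕ) ∈ asc m d := by
          unfold asc
          rw [Finset.mem_filter]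
          exact ⟨Finset.mem_range.2 k.2, k.2, hk⟩
        have h2 := hsub h1
        unfold AJ at h2
        rw [Finset.mem_filter] at h2
        obtain ⟨_, _, j, hj, h⟩ := h2
        exact ⟨j, hj, h⟩
      · rw [Finset.not_subset] at hsub
        obtain ⟨k, hk, hkA⟩ := hsub
        exact alt_toggle (asc m d) (AJ m J d) (fun K => (Nat.card (FixIn (D.parabolicIn F J) (QJ m F J K d) x) : ℂ)) hk hkA
    · rfl
  · intro h; exact absurd (Finset.mem_univ _) h

end Cfsg.Agent.H14.Chev
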