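import Mathlib
import Cfsg.Agent.H14_StN
import Cfsg.Agent.H14_StJ

set_option autoImplicit false
set_option linter.unusedSectionVars false

/-!
Values of the Steinberg character at semisimple elements.
-/

namespace Cfsg.Agent.H14.Chev

open Cfsg Cfsg.Lie Cfsg.Lie.ChevalleyDatum Cfsg.Agent.H6 Cfsg.Agent.H6.Chev Cfsg.Agent.H6.Chev.Model
open Cfsg.Agent.H3.CharIrr
open scoped Matrix Pointwise

section grp

variable {G : Type*} [Group G] [Finite G]

theorem mul_pow_norm {N : Subgroup G} {t u : G} (ht : t ∈ Subgroup.normalizer (N : Set G)) (hu : u ∈ N) (k : ℕ) :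
    ∃ v ∈ N, (t * u) ^ k = t ^ k * v := by
  induction k with
  | zero => exact ⟨1, one_mem _, by simp⟩
  | succ k ih =>
    obtain ⟨v, hv, hk⟩ := ih
    refine ⟨(t⁻¹ * v * t) * u, mul_mem ?_ hu, ?_⟩
    · have := (Subgroup.mem_normalizer_iff.1 (Subgroup.inv_mem _ ht) v).1 hv
      rwa [inv_inv] at this
    · rw [pow_succ, hk, pow_succ]; group

/-- fixed points of a `p`-regular element on `P/L` when `P = L N`, `L ∩ N = 1`, `N` a normal `p`-subgroup -/
theorem card_fixIn_compl {p : ℕ} [Fact p.Prime] (P L N : Subgroup G) (hL : L ≤ P) (hNP : N ≤ P) (hN : P ≤ Subgroup.normalizer (N : Set G)) (hp : IsPGroup p N)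
    (hLN : L ⊓ N = ⊥) (hP : ∀ x ∈ P, ∃ l ∈ L, ∃ u ∈ N, x = l * u) {s : G} (hs : s ∈ P) (hsp : ¬ p ∣ orderOf s) :
    Nat.card (FixIn P L s) = Nat.card ↥(N ⊓ Subgroup.centralizer ({s} : Set G) : Subgroup G) := by
  obtain ⟨l, hl, u, hu, he⟩ := hP s hs
  have hbot : ∀ x, x ∈ L → x ∈ N → x = 1 := by
    intro x h1 h2
    have : x ∈ L ⊓ N := Subgroup.mem_inf.2 ⟨h1, h2⟩
    rwa [hLN, Subgroup.mem_bot] at this
  have hlsp : ¬ p ∣ orderOf l := by
    intro h
    apply hsp
    apply dvd_trans h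
    apply orderOf_dvd_of_pow_eq_one
    obtain ⟨v, hv, hk⟩ := mul_pow_norm (hN (hL hl)) hu (orderOf s)
    rw [← he, pow_orderOf_eq_one] at hk
    have : l ^ orderOf s = v⁻¹ := eq_inv_of_mul_eq_one_left hk.symm
    exact hbot _ (pow_mem hl _) (by rw [this]; exact inv_mem hv)
  obtain ⟨k, hk, hks⟩ := Cfsg.Agent.H14.StGen.preg_coset hp (hN (hL hl)) hlsp hu (by rw [← he]; exact hsp)
  rw [← he] at hks
  symm
  apply Nat.card_congr
  refine Equiv.ofBijective (fun c => ⟨((c.1 * k : G) : G ⧸ L), ⟨c.1 * k, mul_mem (hNP c.2.1) (hNP hk), rfl⟩, ?_⟩) ⟨?_, ?_⟩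
  · rw [smul_mk_iff]
    have h1 : s * c.1 = c.1 * s := (Subgroup.mem_centralizer_singleton_iff.1 (Subgroup.mem_inf.1 c.2).2).symm
    have e : (c.1 * k)⁻¹ * s * (c.1 * k) = k⁻¹ * (c.1⁻¹ * (s * c.1)) * k := by group
    rw [e, h1, inv_mul_cancel_left, ← hks]
    have e2 : k⁻¹ * (k * l * k⁻¹) * k = l := by group
    rw [e2]; exact hl
  · intro c c' h
    have h1 : ((c.1 * k : G) : G ⧸ L) = ((c'.1 * k : G) : G ⧸ L) := congrArg Subtype.val h
    rw [QuotientGroup.eq] at h1
    have h2 : (c.1 * k)⁻¹ * (c'.1 * k) ∈ N := mul_mem (inv_mem (mul_mem c.2.1 hk)) (mul_mem c'.2.1 hk)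
    have h3 := hbot _ h1 h2
    rw [inv_mul_eq_one] at h3
    exact Subtype.ext (mul_right_cancel h3)
  · rintro ⟨z, ⟨x, hx, rfl⟩, hz⟩
    rw [smul_mk_iff] at hz
    -- x = v l'
    obtain ⟨l', hl', u', hu', hx'⟩ := hP x hx
    have hv : l' * u' * l'⁻¹ ∈ N := (Subgroup.mem_normalizer_iff.1 (hN (hL hl')) u').1 hu'
    obtain ⟨v, hvdef⟩ : ∃ v, v = l' * u' * l'⁻¹ := ⟨_, rfl⟩
    rw [← hvdef] at hv
    have hxv : x = v * l' := by rw [hvdef, hx']; group
    have hvs : v⁻¹ * s * v ∈ L := by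
      have e : v⁻¹ * s * v = l' * (x⁻¹ * s * x) * l'⁻¹ := by rw [hxv]; group
      rw [e]; exact mul_mem (mul_mem hl' hz) (inv_mem hl')
    obtain ⟨w, hw⟩ : ∃ w, w = k⁻¹ * v := ⟨_, rfl⟩
    have hwN : w ∈ N := by rw [hw]; exact mul_mem (inv_mem hk) hv
    have h1 : w⁻¹ * l * w ∈ L := by
      have e : w⁻¹ * l * w = v⁻¹ * s * v := by rw [hw, ← hks]; group
      rw [e]; exact hvs
    have h2 : l⁻¹ * (w⁻¹ * l * w) = 1 := by
      apply hbot
      · exact mul_mem (inv_mem hl) h1
      · have e : l⁻¹ * (w⁻¹ * l * w) = (l⁻¹ * w⁻¹ * l) * w := by group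
        rw [e]
        have := (Subgroup.mem_normalizer_iff.1 (Subgroup.inv_mem _ (hN (hL hl))) w⁻¹).1 (inv_mem hwN)
        rw [inv_inv] at this
        exact mul_mem this hwN
    have h3 : w⁻¹ * l * w = l := (inv_mul_eq_one.1 h2).symm
    have h4 : l * w = w * l := by
      calc l * w = w * (w⁻¹ * l * w) := by group
        _ = w * l := by rw [h3]
    have hc : v * k⁻¹ ∈ N ⊓ Subgroup.centralizer ({s} : Set G) := by
      refine Subgroup.mem_inf.2 ⟨mul_mem hv (inv_mem hk), ?_⟩
      rw [Subgroup.mem_centralizer_singleton_iff]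
      have e1 : v * k⁻¹ = k * w * k⁻¹ := by rw [hw]; group
      rw [e1, ← hks]
      calc k * w * k⁻¹ * (k * l * k⁻¹) = k * (w * l) * k⁻¹ := by group
        _ = k * (l * w) * k⁻¹ := by rw [h4]
        _ = _ := by group
    refine ⟨⟨v * k⁻¹, hc⟩, Subtype.ext ?_⟩
    change ((v * k⁻¹ * k : G) : G ⧸ L) = (x : G ⧸ L)
    rw [QuotientGroup.eq, hxv]
    have e : (v * k⁻¹ * k)⁻¹ * (v * l') = l' := by group
    rw [e]; exact hl'

end grp

variable {D : ChevalleyDatum} {F : Type*} [Field F] (m : Model D)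

include m in
theorem card_dvd_steinberg [Fintype F] {p : ℕ} [hp : Fact p.Prime] [CharP F p] {s : ↥(D.group F)} (hs : ¬ p ∣ orderOf s) :
    ∃ z : ℤ, D.steinbergCharacter F s = ((p ^ (Nat.card ↥(Subgroup.centralizer ({s} : Set ↥(D.group F)))).factorization p : ℕ) : ℂ) * z := by
  classical
  obtain ⟨P⟩ : Nonempty (Sylow p ↥(Subgroup.centralizer ({s} : Set ↥(D.group F)))) := inferInstance
  obtain ⟨Q, hQ⟩ : ∃ Q : Subgroup ↥(D.group F), Q = (P : Subgroup _).map (Subgroup.centralizer ({s} : Set ↥(D.group F))).subtype := ⟨_, rfl⟩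
  have hQcard : Nat.card Q = p ^ (Nat.card ↥(Subgroup.centralizer ({s} : Set ↥(D.group F)))).factorization p := by
    rw [← P.card_eq_multiplicity, hQ]
    exact Nat.card_congr ((P : Subgroup ↥(Subgroup.centralizer ({s} : Set ↥(D.group F)))).equivMapOfInjective
      (Subgroup.centralizer ({s} : Set ↥(D.group F))).subtype (Subgroup.subtype_injective _)).symm.toEquiv
  have hQc : ∀ x ∈ Q, s * x = x * s := by
    intro x hx
    rw [hQ] at hx
    obtain ⟨y, hy, rfl⟩ := hx
    exact (Subgroup.mem_centralizer_singleton_iff.1 y.2).symm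
  have hQp : IsPGroup p Q := by rw [hQ]; exact P.isPGroup'.map _
  have : Fintype Q := Fintype.ofFinite _
  have h1 : ∑ x : Q, D.steinbergCharacter F (s * x) = D.steinbergCharacter F s := by
    rw [Finset.sum_eq_single (1 : Q)]
    · simp
    · intro x _ hx
      apply steinberg_vanish m (p := p)
      apply Cfsg.Agent.H14.StGen.dvd_orderOf_mul (hQc x x.2) hs (fun h => hx (Subtype.ext h))
      obtain ⟨k, hk⟩ := hQp x
      exact ⟨k, by have := congrArg Subtype.val hk; simpa using this⟩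
    · intro h; exact absurd (Finset.mem_univ _) h
  rw [← h1]
  unfold ChevalleyDatum.steinbergCharacter
  rw [Finset.sum_comm]
  have h2 : ∀ J : Finset ℕ, ∃ z : ℤ, ∑ x : Q, (-1 : ℂ) ^ J.card * fixedPointCharacter (D.parabolicIn F J) (s * x) = (Nat.card Q : ℂ) * z := by
    intro J
    obtain ⟨c, hc⟩ := Cfsg.Agent.H14.StGen.dvd_sum_fix (X := ↥(D.group F) ⧸ D.parabolicIn F J) Q hQc
    refine ⟨(-1) ^ J.card * c, ?_⟩
    rw [← Finset.mul_sum]
    have : ∑ x : Q, fixedPointCharacter (D.parabolicIn F J) (s * (x : ↥(D.group F))) = ((Nat.card Q * c : ℕ) : ℂ) := by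
      rw [← hc, Nat.cast_sum]; rfl
    rw [this]; push_cast; ring
  choose z hz using h2
  refine ⟨∑ J ∈ (Finset.range D.rank).powerset, z J, ?_⟩
  rw [Finset.sum_congr rfl (fun J _ => hz J), ← Finset.mul_sum, hQcard]
  push_cast
  rfl

theorem steinberg_conj [Finite F] (x y : ↥(D.group F)) : D.steinbergCharacter F (y * x * y⁻¹) = D.steinbergCharacter F x := by
  unfold ChevalleyDatum.steinbergCharacter
  apply Finset.sum_congr rfl
  intro J _
  congr 1
  unfold fixedPointCharacter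
  congr 1
  apply Nat.card_congr
  exact
    { toFun := fun z => ⟨y⁻¹ • z.1, by
        have h : (y * x * y⁻¹) • z.1 = z.1 := z.2
        rw [MulAction.mem_fixedBy]
        rw [mul_smul, mul_smul] at h
        rw [eq_inv_smul_iff]; exact h⟩
      invFun := fun z => ⟨y • z.1, by
        have h : x • z.1 = z.1 := z.2
        rw [MulAction.mem_fixedBy, mul_smul, mul_smul, inv_smul_smul, h]⟩
      left_inv := fun z => Subtype.ext (smul_inv_smul _ _)
      right_inv := fun z => Subtype.ext (inv_smul_smul _ _) }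

include m in
theorem steinberg_value [Fintype F] {p : ℕ} [hp : Fact p.Prime] [CharP F p] {g : ↥(D.group F)} (hg : ¬ p ∣ orderOf g) :
    D.steinbergCharacter F g = ((p ^ (Nat.card ↥(Subgroup.centralizer ({g} : Set ↥(D.group F)))).factorization p : ℕ) : ℂ) ∨
      D.steinbergCharacter F g = -((p ^ (Nat.card ↥(Subgroup.centralizer ({g} : Set ↥(D.group F)))).factorization p : ℕ) : ℂ) := by
  classical
  -- minimal J
  let T : ℕ → Prop := fun k => ∃ J : Finset ℕ, J ⊆ Finset.range D.rank ∧ J.card = k ∧ ∃ y : ↥(D.group F), y⁻¹ * g * y ∈ D.parabolicIn F J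
  have hT : ∃ k, T k := by
    refine ⟨_, Finset.range D.rank, subset_rfl, rfl, 1, ?_⟩
    rw [mem_parabolicIn, parabolic_full m (fun i hi => by simpa using hi)]
    exact (1⁻¹ * g * 1 : ↥(D.group F)).2
  obtain ⟨J, hJ, hJc, y, hy⟩ := Nat.find_spec hT
  obtain ⟨s, hs⟩ : ∃ s, s = y⁻¹ * g * y := ⟨_, rfl⟩
  rw [← hs] at hy
  have hgs : g = y * s * y⁻¹ := by rw [hs]; group
  have hsp : ¬ p ∣ orderOf s := by
    have : orderOf s = orderOf g := by
      have e : s = MulAut.conj y⁻¹ g := by rw [hs, MulAut.conj_apply, inv_inv]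
      rw [e]
      exact MulEquiv.orderOf_eq _ _
    rw [this]; exact hg
  have hst : stJ D F J s = (-1 : ℂ) ^ J.card := by
    unfold stJ
    rw [Finset.sum_eq_single J]
    · have : Nat.card (FixIn (D.parabolicIn F J) (D.parabolicIn F J) s) = 1 := by
        rw [Nat.card_eq_one_iff_unique]
        constructor
        · constructor
          rintro ⟨_, ⟨x, hx, rfl⟩, _⟩ ⟨_, ⟨x', hx', rfl⟩, _⟩
          apply Subtype.ext
          change (x : ↥(D.group F) ⧸ D.parabolicIn F J) = (x' : ↥(D.group F) ⧸ D.parabolicIn F J)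
          rw [QuotientGroup.eq]
          exact mul_mem (inv_mem hx) hx'
        · exact ⟨⟨((1 : ↥(D.group F)) : ↥(D.group F) ⧸ D.parabolicIn F J), ⟨1, one_mem _, rfl⟩, smul_mk_iff.2 (by simpa using hy)⟩⟩
      rw [this]; simp
    · intro K hK hne
      have : Nat.card (FixIn (D.parabolicIn F J) (D.parabolicIn F K) s) = 0 := by
        rw [Nat.card_eq_zero]
        left
        constructor
        rintro ⟨_, ⟨x, hx, rfl⟩, hz⟩
        rw [smul_mk_iff] at hz
        have hKJ := Finset.mem_powerset.1 hK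
        have hlt : K.card < J.card := Finset.card_lt_card (lt_of_le_of_ne hKJ hne)
        rw [hJc] at hlt
        refine Nat.find_min hT hlt ⟨K, hKJ.trans hJ, rfl, y * x, ?_⟩
        have e : (y * x)⁻¹ * g * (y * x) = x⁻¹ * s * x := by rw [hs]; group
        rw [e]; exact hz
      rw [this]; simp
    · intro h; exact absurd (Finset.mem_powerset.2 subset_rfl) h
  have hU : IsPGroup p ↥((D.unipotentRadical F (J : Set ℕ)).subgroupOf (D.group F)) := by
    apply IsPGroup.comap_subtype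
    exact (isPGroup_U m (F := F) (p := p)).to_le (m.radical_le_U _)
  have hfix := card_fixIn_compl (p := p) (D.parabolicIn F J) (LevG D F J) ((D.unipotentRadical F (J : Set ℕ)).subgroupOf (D.group F))
    (fun x hx => levi_le_parabolic m _ hx) (fun x hx => m.B_le_parabolic _ (U_le_B (m.radical_le_U _ hx)))
    (by
      intro x hx
      rw [Subgroup.mem_normalizer_iff]
      intro h
      exact Subgroup.mem_normalizer_iff.1 (m.parabolic_norm (F := F) _ hx) h) hU
    (by
      rw [eq_bot_iff]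
      rintro x ⟨h1, h2⟩
      have h3 : (x : GL D.Idx F) ∈ D.unipotentRadical F (J : Set ℕ) ⊓ D.leviSubgroup F (J : Set ℕ) := Subgroup.mem_inf.2 ⟨h2, h1⟩
      rw [m.radical_inf_levi, Subgroup.mem_bot] at h3
      rw [Subgroup.mem_bot]
      exact Subtype.ext h3)
    (by
      intro y hy
      have hy' : (y : GL D.Idx F) ∈ D.unipotentRadical F (J : Set ℕ) ⊔ D.leviSubgroup F (J : Set ℕ) := by
        rw [m.radical_sup_levi]; exact hy
      rw [sup_comm, mem_sup_norm (le_trans (levi_le_parabolic m _) (m.parabolic_norm _))] at hy'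
      obtain ⟨l0, hl0, u0, hu0, he⟩ := hy'
      exact ⟨⟨l0, m.parabolic_le_G _ (levi_le_parabolic m _ hl0)⟩, hl0, ⟨u0, m.B_le_G (U_le_B (m.radical_le_U _ hu0))⟩, hu0, Subtype.ext he⟩)
    hy hsp
  have hval := steinberg_restrict m hJ hy
  rw [hst, hfix] at hval
  obtain ⟨z, hz⟩ := card_dvd_steinberg m (p := p) hsp
  have hcent : Nat.card ↥(Subgroup.centralizer ({g} : Set ↥(D.group F))) = Nat.card ↥(Subgroup.centralizer ({s} : Set ↥(D.group F))) := by
    have e : Subgroup.centralizer ({g} : Set ↥(D.group F)) = (Subgroup.centralizer ({s} : Set ↥(D.group F))).map (MulAut.conj y).toMonoidHom := by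
      ext x
      rw [Subgroup.mem_map_equiv, Subgroup.mem_centralizer_singleton_iff, Subgroup.mem_centralizer_singleton_iff, hgs]
      have e0 : (MulEquiv.symm (MulAut.conj y)) x = y⁻¹ * x * y := by simp
      rw [show ((MulAut.conj y).symm : ↥(D.group F) ≃* ↥(D.group F)) x = y⁻¹ * x * y from e0]
      constructor
      · intro h
        calc (y⁻¹ * x * y) * s = y⁻¹ * (x * (y * s * y⁻¹)) * y := by group
          _ = y⁻¹ * (y * s * y⁻¹ * x) * y := by rw [h]
          _ = _ := by group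
      · intro h
        calc x * (y * s * y⁻¹) = y * ((y⁻¹ * x * y) * s) * y⁻¹ := by group
          _ = y * (s * (y⁻¹ * x * y)) * y⁻¹ := by rw [h]
          _ = _ := by group
    rw [e]
    exact Nat.card_congr ((Subgroup.centralizer ({s} : Set ↥(D.group F))).equivMapOfInjective _ (MulAut.conj y).injective).symm.toEquiv
  have hgval : D.steinbergCharacter F g = D.steinbergCharacter F s := by rw [hgs, steinberg_conj]
  rw [hcent, hgval]
  set C := Nat.card ↥(Subgroup.centralizer ({s} : Set ↥(D.group F))) with hC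
  set A := Nat.card ↥((D.unipotentRadical F (J : Set ℕ)).subgroupOf (D.group F) ⊓ Subgroup.centralizer ({s} : Set ↥(D.group F)) : Subgroup ↥(D.group F)) with hA
  have h1 : A ∣ p ^ C.factorization p := by
    have hAC : A ∣ C := Subgroup.card_dvd_of_le inf_le_right
    have hAp : ∃ n, A = p ^ n := by
      rw [hA]
      exact IsPGroup.iff_card.1 (hU.to_le inf_le_left)
    obtain ⟨n, hn⟩ := hAp
    rw [hn] at hAC ⊢
    apply pow_dvd_pow
    have hC0 : C ≠ 0 := Nat.card_pos.ne'
    exact (hp.out.pow_dvd_iff_le_factorization hC0).1 hAC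
  have h2 : ((p ^ C.factorization p : ℕ) : ℤ) ∣ (A : ℤ) := by
    have h3 : (A : ℂ) * (-1 : ℂ) ^ J.card = ((p ^ C.factorization p : ℕ) : ℂ) * z := by rw [← hval, hz]
    have h4 : (A : ℤ) * (-1) ^ J.card = ((p ^ C.factorization p : ℕ) : ℤ) * z := by exact_mod_cast h3
    have h5 : (A : ℤ) = ((p ^ C.factorization p : ℕ) : ℤ) * (z * (-1) ^ J.card) := by
      rw [← mul_assoc, ← h4, mul_assoc, ← mul_pow]; norm_num
    rw [h5]; exact dvd_mul_right _ _
  have h3 : A = p ^ C.factorization p := Nat.dvd_antisymm h1 (by exact_mod_cast h2)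
  rw [hval, h3]
  rcases neg_one_pow_eq_or ℂ J.card with h | h
  · left; rw [h, mul_one]
  · right; rw [h]; ring

end Cfsg.Agent.H14.Chev
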