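import Mathlib
import Cfsg.Agent.H14_StO
import Cfsg.Agent.H18_CharP

set_option autoImplicit false
set_option linter.unusedSectionVars false

/-!
Parabolic subgroups have characteristic `p`.
-/

namespace Cfsg.Agent.H14.Chev

open Cfsg Cfsg.Lie Cfsg.Lie.ChevalleyDatum Cfsg.Agent.H6 Cfsg.Agent.H6.Chev Cfsg.Agent.H6.Chev.Model
open scoped Matrix

variable {D : ChevalleyDatum} {F : Type*} [Field F] (m : Model D)

include m in
theorem X_not_mem_ge {r : ℕ} (hN : m.N ≤ r) (hr : r < D.nroots) {t : F} (h : m.X r t ∈ m.gen F (fun s => r + 1 ≤ s)) : t = 0 := by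
  have h1 := m.good_range hN hr.le
  have h2 : List.range' r (D.nroots - r) = r :: List.range' (r + 1) (D.nroots - (r + 1)) := by
    have : D.nroots - r = (D.nroots - (r + 1)) + 1 := by omega
    rw [this, List.range'_succ]
  rw [h2] at h1
  apply h1.eq_zero (F := F)
  rw [m.UL_range (by omega)]
  exact h

include m in
theorem conj_leading {β : GL D.Idx F} (hβ : β ∈ D.borelSubgroup F) {r s : ℕ} (hrN : m.N ≤ r) (hr : r < D.nroots) (hsN : m.N ≤ s) (hs : s < D.nroots)
    {t u : F} (ht : t ≠ 0) (he : β * m.X r t * β⁻¹ = m.X s u) : s = r := by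
  obtain ⟨v, hv, h, hh, rfl⟩ := m.mem_B.1 hβ
  obtain ⟨b, rfl⟩ := m.mem_H.1 hh
  rw [m.hHom_apply] at he
  have h1 := m.dm_X (F := F) (hC D b) r t
  set t' := ((m.chi (hC D b) r : Fˣ) : F) * t with ht'
  have ht'0 : t' ≠ 0 := mul_ne_zero (Units.ne_zero _) ht
  have h2 : v * m.X r t' * v⁻¹ = m.X s u := by
    rw [← he]
    have : m.X r t' = m.dmHom (hC D b) * m.X r t * (m.dmHom (hC D b))⁻¹ := by rw [h1]; group
    rw [this]; group
  rw [m.posUnipotent_eq] at hv
  have h3 := m.comm_mem hrN (m.X_mem_gen (F := F) (R := fun s => r ≤ s) le_rfl t') hv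
  set c := m.X r t' * v * (m.X r t')⁻¹ * v⁻¹ with hc
  have h4 : m.X s u = c⁻¹ * m.X r t' := by
    rw [← h2, hc]; group
  have hX : m.X r t' = c * m.X s u := by rw [h4]; group
  rcases lt_trichotomy s r with hlt | heq | hgt
  · exfalso
    have h5 : m.X s u ∈ m.gen F (fun k => s + 1 ≤ k) := by
      rw [h4]
      exact mul_mem (inv_mem (m.gen_mono (fun k _ hk => by omega) h3)) (m.X_mem_gen (R := fun k => s + 1 ≤ k) hlt _)
    have h6 := X_not_mem_ge m hsN hs h5
    rw [h6, m.X_zero, mul_one] at hX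
    exact ht'0 (X_not_mem_ge m hrN hr (by rw [hX]; exact h3))
  · exact heq
  · exfalso
    apply ht'0
    apply X_not_mem_ge m hrN hr
    rw [hX]
    exact mul_mem h3 (m.X_mem_gen (R := fun k => r + 1 ≤ k) hgt _)

/-- `w r = r` for all positive roots outside `Φ_J`, `w ∈ W_J` implies `w = 1` -/
theorem eq_one_of_fix {J : Set ℕ} (hJ : ∃ i, i < D.rank ∧ i ∉ J) {w : Equiv.Perm (Fin D.nroots)} (hw : w ∈ m.WJ J)
    (h : ∀ r : Fin D.nroots, m.N ≤ r → ¬ D.InRootSub J r → w r = r) : w = 1 := by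
  by_contra hne
  obtain ⟨j, hj, hneg⟩ := m.exists_neg hw hne
  -- some root outside with cartan j r ≠ 0
  have key : ∀ j : Fin D.rank, (j : ℕ) ∈ J → ∃ r : Fin D.nroots, m.N ≤ r ∧ ¬ D.InRootSub J r ∧ D.cartan j r ≠ 0 := by
    by_contra hc
    push Not at hc
    obtain ⟨j0, hj0, hj0'⟩ := hc
    obtain ⟨i0, hi0, hi0J⟩ := hJ
    obtain ⟨a, ha, b, hb, h1, h2, h3⟩ := m.conn (fun k => k ∈ J ∧ ∀ r : Fin D.nroots, m.N ≤ r → ¬ D.InRootSub J r → D.cartan k r = 0)
      ⟨j0, j0.2, hj0, hj0'⟩ ⟨i0, hi0, fun h => hi0J h.1⟩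
    by_cases hbJ : b ∈ J
    · have h4 : ∃ r : Fin D.nroots, m.N ≤ r ∧ ¬ D.InRootSub J r ∧ D.cartan b r ≠ 0 := by
        by_contra hc
        push Not at hc
        exact h2 ⟨hbJ, hc⟩
      obtain ⟨r, hrN, hrJ, hrb⟩ := h4
      have hs1 : m.N ≤ m.sr ⟨b, hb⟩ r := (WJ_sign m (m.sr_mem_WJ (i := ⟨b, hb⟩) hbJ) hrJ).2 hrN
      have hs2 : ¬ D.InRootSub J (m.sr ⟨b, hb⟩ r) := by
        intro h
        apply hrJ
        have := m.inRootSub_WJ (m.sr_mem_WJ (i := ⟨b, hb⟩) hbJ) h
        have e : m.sr ⟨b, hb⟩ (m.sr ⟨b, hb⟩ r) = r := by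
          rw [← Equiv.Perm.mul_apply, m.sr_mul_self, Equiv.Perm.one_apply]
        rwa [e] at this
      have h5 := h1.2 _ hs1 hs2
      rw [coe_sr, m.cartan_refl hb ha r.2, h1.2 r hrN hrJ, zero_sub, neg_eq_zero] at h5
      rcases mul_eq_zero.1 h5 with h | h
      · exact hrb h
      · exact h3 h
    · have h4 : ¬ D.InRootSub J (m.p ⟨b, hb⟩) := by
        intro h
        have h5 := (m.inRootSub_iff' (m.p ⟨b, hb⟩).2).1 h b hb hbJ
        rw [coe_p, m.coef_simple b hb b hb, if_pos rfl] at h5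
        exact one_ne_zero h5
      exact h3 (h1.2 (m.p ⟨b, hb⟩) (m.p_pos _) h4)
  obtain ⟨r, hrN, hrJ, hr0⟩ := key j hj
  have hs1 : m.N ≤ m.sr j r := (WJ_sign m (m.sr_mem_WJ hj) hrJ).2 hrN
  have hs2 : ¬ D.InRootSub J (m.sr j r) := by
    intro h
    apply hrJ
    have := m.inRootSub_WJ (m.sr_mem_WJ hj) h
    have e : m.sr j (m.sr j r) = r := by
      rw [← Equiv.Perm.mul_apply, m.sr_mul_self, Equiv.Perm.one_apply]
    rwa [e] at this
  have e1 := h r hrN hrJ
  have e2 := h _ hs1 hs2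
  have hW := m.isW (m.WJ_le J hw)
  have e3 : w (m.p j) = m.p j := by
    apply m.ext_coef
    intro k hk
    have h1 := hW.lin (m.sr j r) k hk
    have h2 := hW.lin r k hk
    rw [e2] at h1
    rw [e1] at h2
    have h3 : ∀ i : Fin D.rank, m.coef (m.sr j r) i = m.coef r i - if (j : ℕ) = i then D.cartan j r else 0 := by
      intro i
      rw [coe_sr]
      exact m.coef_refl j j.2 r r.2 i i.2
    have h4 : m.coef (m.sr j r) k = m.coef r k - if (j : ℕ) = k then D.cartan j r else 0 := by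
      rw [coe_sr]
      exact m.coef_refl j j.2 r r.2 k hk
    rw [h4, Finset.sum_congr rfl (fun i _ => by rw [h3 i, sub_mul]), Finset.sum_sub_distrib, ← h2] at h1
    have h5 : ∑ i : Fin D.rank, (if (j : ℕ) = i then D.cartan j r else 0) * m.coef (w (m.p i)) k = D.cartan j r * m.coef (w (m.p j)) k := by
      rw [Finset.sum_eq_single j]
      · rw [if_pos rfl]
      · intro i _ hi
        rw [if_neg (fun h => hi (Fin.ext h.symm)), zero_mul]
      · intro h; exact absurd (Finset.mem_univ _) h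
    rw [h5] at h1
    have h6 : D.cartan j r * m.coef (w (m.p j)) k = if (j : ℕ) = k then D.cartan j r else 0 := by linarith
    rw [coe_p, m.coef_simple j j.2 k hk]
    apply mul_left_cancel₀ hr0
    rw [h6]
    split_ifs <;> simp
  rw [e3] at hneg
  have := m.p_pos j
  omega

include m in
/-- elements of `P_J` centralizing `U_J` lie in `B` -/
theorem mem_B_of_centralizes {J : Set ℕ} (hJ : ∃ i, i < D.rank ∧ i ∉ J) {x : GL D.Idx F} (hx : x ∈ D.parabolicSubgroup F J)
    (hc : ∀ u ∈ D.unipotentRadical F J, x * u = u * x) : x ∈ D.borelSubgroup F := by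
  have hxG := m.parabolic_le_G J hx
  have hw := pos_mem_WJ m (x := ⟨x, hxG⟩) hx
  obtain ⟨b, hb, n, hn, b', hb', hact, he⟩ := pos_spec m (⟨x, hxG⟩ : ↥(D.group F))
  change x = b * n * b' at he
  have h1 : pos m (⟨x, hxG⟩ : ↥(D.group F)) = 1 := by
    apply eq_one_of_fix m hJ hw
    intro r hrN hrJ
    obtain ⟨v, hv⟩ := m.exists_conj_eq' hact r (1 : F)
    have hb'n : b' ∈ Subgroup.normalizer (D.unipotentRadical F J : Set (GL D.Idx F)) := m.parabolic_norm J (m.B_le_parabolic J hb')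
    have hXr : m.X r (1 : F) ∈ D.unipotentRadical F J := by
      rw [m.unipotentRadical_eq]
      exact m.X_mem_gen (R := fun r => m.N ≤ r ∧ ¬ D.InRootSub J r) ⟨hrN, hrJ⟩ _
    have hu : b'⁻¹ * m.X r (1 : F) * b' ∈ D.unipotentRadical F J := by
      have := (Subgroup.mem_normalizer_iff.1 (inv_mem hb'n) (m.X r (1 : F))).1 hXr
      rwa [inv_inv] at this
    have h2 := hc _ hu
    have h3 : x * (b'⁻¹ * m.X r (1 : F) * b') * x⁻¹ = b'⁻¹ * m.X r (1 : F) * b' := by rw [h2]; group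
    have h4 : (b⁻¹ * b'⁻¹) * m.X r (1 : F) * (b⁻¹ * b'⁻¹)⁻¹ = m.X (pos m (⟨x, hxG⟩ : ↥(D.group F)) r) v := by
      rw [← hv]
      have e : n * m.X r (1 : F) * n⁻¹ = b⁻¹ * (x * (b'⁻¹ * m.X r (1 : F) * b') * x⁻¹) * b := by rw [he]; group
      rw [e, h3]; group
    have h5 : m.N ≤ pos m (⟨x, hxG⟩ : ↥(D.group F)) r := (WJ_sign m hw hrJ).2 hrN
    have h6 := conj_leading m (mul_mem (inv_mem hb) (inv_mem hb')) hrN r.2 h5 (pos m (⟨x, hxG⟩ : ↥(D.group F)) r).2 one_ne_zero h4
    exact Fin.ext h6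
  exact (pos_one_iff m).1 h1

include m in
/-- `p'`-elements of `P_J` centralizing `U_J` are trivial -/
theorem eq_one_of_centralizes [Fintype F] {p : ℕ} [hp : Fact p.Prime] [CharP F p] {J : Set ℕ} (hJ : ∃ i, i < D.rank ∧ i ∉ J) {x : GL D.Idx F} (hx : x ∈ D.parabolicSubgroup F J)
    (hc : ∀ u ∈ D.unipotentRadical F J, x * u = u * x) (hxp : ¬ p ∣ orderOf x) : x = 1 := by
  -- all conjugates are in B
  have hconj : ∀ y ∈ D.parabolicSubgroup F J, y⁻¹ * x * y ∈ D.borelSubgroup F ∧ ∀ u ∈ D.unipotentRadical F J, (y⁻¹ * x * y) * u = u * (y⁻¹ * x * y) := by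
    intro y hy
    have h1 : ∀ u ∈ D.unipotentRadical F J, (y⁻¹ * x * y) * u = u * (y⁻¹ * x * y) := by
      intro u hu
      have h2 : y * u * y⁻¹ ∈ D.unipotentRadical F J := (Subgroup.mem_normalizer_iff.1 (m.parabolic_norm J hy) u).1 hu
      have h3 := hc _ h2
      calc (y⁻¹ * x * y) * u = y⁻¹ * (x * (y * u * y⁻¹)) * y := by group
        _ = y⁻¹ * ((y * u * y⁻¹) * x) * y := by rw [h3]
        _ = _ := by group
    exact ⟨mem_B_of_centralizes m hJ (mul_mem (mul_mem (inv_mem hy) hx) hy) h1, h1⟩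
  have hxB : x ∈ D.borelSubgroup F := by
    have := (hconj 1 (one_mem _)).1
    simpa using this
  -- conjugate into H
  obtain ⟨y, hyB, hyH⟩ : ∃ y ∈ D.borelSubgroup F, y⁻¹ * x * y ∈ D.diagonalSubgroup F := by
    have h1 := card_fixIn_compl (G := ↥(D.group F)) (p := p) (BG D F) ((D.diagonalSubgroup F).subgroupOf (D.group F)) ((D.posUnipotent F).subgroupOf (D.group F))
      (fun y hy => H_le_B hy) (fun y hy => U_le_B hy)
      (by
        intro y hy
        rw [Subgroup.mem_normalizer_iff]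
        intro h
        exact Subgroup.mem_normalizer_iff.1 (B_norm_U m hy) h)
      (by
        apply IsPGroup.comap_subtype
        exact isPGroup_U m (F := F) (p := p))
      (by
        rw [eq_bot_iff]
        rintro y ⟨h1, h2⟩
        have h3 : (y : GL D.Idx F) ∈ D.posUnipotent F ⊓ D.diagonalSubgroup F := Subgroup.mem_inf.2 ⟨h2, h1⟩
        rw [m.U_inf_H, Subgroup.mem_bot] at h3
        rw [Subgroup.mem_bot]
        exact Subtype.ext h3)
      (by
        intro y hy
        obtain ⟨u, hu, h, hh, he⟩ := m.mem_B.1 hy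
        have hu' : h⁻¹ * u * h ∈ D.posUnipotent F := by
          have := (Subgroup.mem_normalizer_iff.1 (m.H_le_normalizer_U (inv_mem hh)) u).1 hu
          rwa [inv_inv] at this
        refine ⟨⟨h, m.H_le_G hh⟩, hh, ⟨h⁻¹ * u * h, m.U_le_G hu'⟩, hu', Subtype.ext ?_⟩
        change (D.group F).subtype y = h * (h⁻¹ * u * h)
        rw [he]; group)
      (s := ⟨x, m.B_le_G hxB⟩) hxB (by rw [← Subgroup.orderOf_coe]; exact hxp)
    have h2 : 0 < Nat.card (FixIn (BG D F) ((D.diagonalSubgroup F).subgroupOf (D.group F)) (⟨x, m.B_le_G hxB⟩ : ↥(D.group F))) := by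
      rw [h1]; exact Nat.card_pos
    obtain ⟨⟨_, ⟨y, hy, rfl⟩, hz⟩⟩ := (Nat.card_pos_iff.1 h2).1
    rw [smul_mk_iff] at hz
    exact ⟨y, hy, hz⟩
  have hyP := m.B_le_parabolic J hyB
  obtain ⟨b, hb⟩ := m.mem_H.1 hyH
  rw [m.hHom_apply] at hb
  obtain ⟨c, hcdef⟩ : ∃ c, c = hC D b := ⟨_, rfl⟩
  rw [← hcdef] at hb
  have hX : ∀ (r : ℕ) (t : F), (y⁻¹ * x * y) * m.X r t = m.X r (((m.chi c r : Fˣ) : F) * t) * (y⁻¹ * x * y) := by
    intro r t; rw [hb]; exact m.dm_X c r t
  have hone : ∀ i < D.rank, c i = 1 := by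
    intro i hi
    by_cases hiJ : i ∈ J
    · -- conjugation by X_{-p_i}
      have hneg : D.InRootSub J (D.neg (D.simple i)) := m.inRootSub_neg (m.simple_lt i hi) (m.inRootSub_simple hiJ hi)
      have h1 := (hconj (y * m.X (D.neg (D.simple i)) 1) (mul_mem hyP (m.X_mem_parabolic hneg _))).1
      have e : (y * m.X (D.neg (D.simple i)) 1)⁻¹ * x * (y * m.X (D.neg (D.simple i)) 1) =
          m.X (D.neg (D.simple i)) (-1 + ((m.chi c (D.neg (D.simple i)) : Fˣ) : F) * 1) * (y⁻¹ * x * y) := by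
        have h2 := hX (D.neg (D.simple i)) 1
        calc (y * m.X (D.neg (D.simple i)) 1)⁻¹ * x * (y * m.X (D.neg (D.simple i)) 1)
            = (m.X (D.neg (D.simple i)) 1)⁻¹ * ((y⁻¹ * x * y) * m.X (D.neg (D.simple i)) 1) := by group
          _ = _ := by rw [h2, m.X_add, m.X_neg]; group
      rw [e] at h1
      have h2 : m.X (D.neg (D.simple i)) (-1 + ((m.chi c (D.neg (D.simple i)) : Fˣ) : F) * 1) ∈ D.borelSubgroup F := by
        have := mul_mem h1 (inv_mem (H_le_B hyH))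
        rwa [mul_inv_cancel_right] at this
      have h3 : (-1 : F) + ((m.chi c (D.neg (D.simple i)) : Fˣ) : F) * 1 = 0 := by
        by_contra hne
        exact m.X_neg_not_mem_B ⟨i, hi⟩ hne h2
      rw [m.chi_neg c (m.simple_lt i hi), m.chi_simple c hi] at h3
      have h4 : (((c i)⁻¹ : Fˣ) : F) = 1 := by linear_combination h3
      have h5 : (c i)⁻¹ = 1 := Units.ext h4
      exact inv_eq_one.1 h5
    · have h4 : ¬ D.InRootSub J (D.simple i) := by
        intro h
        have h5 := (m.inRootSub_iff' (m.simple_lt i hi)).1 h i hi hiJ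
        rw [m.coef_simple i hi i hi, if_pos rfl] at h5
        exact one_ne_zero h5
      have h5 : m.X (D.simple i) (1 : F) ∈ D.unipotentRadical F J := by
        rw [m.unipotentRadical_eq]
        exact m.X_mem_gen (R := fun r => m.N ≤ r ∧ ¬ D.InRootSub J r) ⟨m.p_pos ⟨i, hi⟩, h4⟩ _
      have h6 := (hconj y hyP).2 _ h5
      rw [hX, m.chi_simple c hi] at h6
      have h7 := mul_right_cancel h6
      have h8 := m.X_inj (m.simple_lt i hi) h7
      exact Units.ext (by rw [mul_one] at h8; exact h8)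
  have h1 : y⁻¹ * x * y = 1 := by
    rw [hb]
    have : m.dmHom (F := F) c = m.dmHom 1 := m.dm_congr (fun i hi => by rw [hone i hi]; rfl)
    rw [this, map_one]
  have e : x = y * (y⁻¹ * x * y) * y⁻¹ := by group
  rw [e, h1]; group

include m in
theorem charP_parabolic [Fintype F] {p : ℕ} [hp : Fact p.Prime] [CharP F p] {J : Set ℕ} (hJ : ∃ i, i < D.rank ∧ i ∉ J) :
    IsPGroup p ↥(generalizedFittingSubgroup ↥(D.parabolicSubgroup F J)) := by
  have h : Cfsg.Agent.H18.CharP.HasCharP p ↥(D.parabolicSubgroup F J) := by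
    apply Cfsg.Agent.H18.CharP.hasCharP_of'
    intro x hx hc
    apply Subtype.ext
    have hxp : ¬ p ∣ orderOf (x : GL D.Idx F) := by
      rw [Subgroup.orderOf_coe]
      intro hd
      have := Nat.Coprime.eq_one_of_dvd (Nat.Coprime.symm hx) hd
      exact hp.out.one_lt.ne' this
    refine eq_one_of_centralizes m (p := p) hJ x.2 ?_ hxp
    intro u hu
    have huP : u ∈ D.parabolicSubgroup F J := m.B_le_parabolic J (U_le_B (m.radical_le_U J hu))
    have hN : ((D.unipotentRadical F J).subgroupOf (D.parabolicSubgroup F J)).Normal := by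
      rw [Subgroup.normal_subgroupOf_iff_le_normalizer (fun v hv => m.B_le_parabolic J (U_le_B (m.radical_le_U J hv)))]
      exact m.parabolic_norm J
    have h1 : (D.unipotentRadical F J).subgroupOf (D.parabolicSubgroup F J) ≤ pCore p ↥(D.parabolicSubgroup F J) := by
      apply Cfsg.Agent.H11.Cores.le_pCore
      apply IsPGroup.comap_subtype
      exact (isPGroup_U m (F := F) (p := p)).to_le (m.radical_le_U J)
    have h2 := hc ⟨u, huP⟩ (h1 hu)
    exact (congrArg Subtype.val h2).symm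
  rw [Cfsg.Agent.H18.CharP.hasCharP_iff.1 h]
  exact Cfsg.Agent.H11.Cores.pCore_isPGroup p

end Cfsg.Agent.H14.Chev
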