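import Mathlib
import Cfsg.Agent.H14_InvG
import Cfsg.Agent.H14_ChevY
import Cfsg.Agent.H14_ChevB

set_option autoImplicit false
set_option linter.unusedSectionVars false

/-!
Involutions of Chevalley groups in characteristic two: long and short root elements are not conjugate.
-/

namespace Cfsg.Agent.H6.Chev.Tab

variable (t : Tab)

/-- the set of roots with the given mask is stable under the Weyl group -/
def ckMask (M : ℕ) : Bool := allNat t.l fun i => allNat t.n fun r => (M.testBit (t.w i r)).xor (!(M.testBit r))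

end Cfsg.Agent.H6.Chev.Tab

namespace Cfsg.Agent.H14.Chev

open Cfsg Cfsg.Lie Cfsg.Lie.ChevalleyDatum Cfsg.Agent.H6 Cfsg.Agent.H6.Chev Cfsg.Agent.H6.Chev.Model
open scoped Matrix

variable {t : Tab} {D : ChevalleyDatum} {F : Type*} [Field F] (m : Model D)

theorem mask_eq (b : t.Base D) (ck : t.Checks D) {M : ℕ} (h : t.ckMask M = true) {w : Equiv.Perm (Fin D.nroots)}
    (hw : w ∈ m.Wg) (r : Fin D.nroots) : M.testBit (w r) = M.testBit r := by
  obtain ⟨l, rfl⟩ := m.exists_wl hw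
  induction l with
  | nil => rfl
  | cons i l ih =>
    rw [← ih (m.wl_mem l), m.wl_cons, Equiv.Perm.mul_apply, m.coe_sr,
      b.reflectRoot_eq ck.refl ck.s (by have := b.rank; omega) (by have := b.nroots; omega)]
    have h1 := allNat_iff (allNat_iff h i (by rw [← b.rank]; exact i.2)) (m.wl l r) (by rw [← b.nroots]; exact (m.wl l r).2)
    revert h1
    generalize M.testBit (t.w i ↑(m.wl l r)) = x
    generalize M.testBit ↑(m.wl l r) = y
    revert x y
    decide

theorem not_conj_ls {r s : Fin D.nroots} (hc : CentU m F r) (hs : m.N ≤ s)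
    (hw : ∀ w ∈ m.Wg, w r ≠ s) {g : GL D.Idx F} (hg : g ∈ D.group F) : g * m.X r 1 * g⁻¹ ≠ m.X s 1 := by
  intro he
  obtain ⟨b, hb, n, hn, b', hb', hact, hge⟩ := pos_spec m ⟨g, hg⟩
  have hWg := pos_mem m ⟨g, hg⟩
  change g = b * n * b' at hge
  -- `b'` scales the root element
  obtain ⟨u, hu, h, hh, rfl⟩ := m.mem_B.1 hb'
  obtain ⟨β, rfl⟩ := m.mem_H.1 hh
  have h1 := m.dm_X (F := F) (hC D β) r 1
  rw [← m.hHom_apply] at h1
  set c1 := ((m.chi (hC D β) r : Fˣ) : F) * 1 with hc1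
  have hc10 : c1 ≠ 0 := mul_ne_zero (Units.ne_zero _) one_ne_zero
  have h2 : (u * m.hHom β) * m.X r 1 * (u * m.hHom β)⁻¹ = m.X r c1 := by
    calc (u * m.hHom β) * m.X r 1 * (u * m.hHom β)⁻¹ = u * (m.hHom β * m.X r 1) * (m.hHom β)⁻¹ * u⁻¹ := by group
      _ = u * m.X r c1 * u⁻¹ := by rw [h1]; group
      _ = m.X r c1 := by rw [hc.comm hu c1]; group
  obtain ⟨c, hcc⟩ := hact
  have h3 := hcc.X r c1
  set c2 : F := (c r : F) * c1 with hc2
  have hc20 : c2 ≠ 0 := mul_ne_zero (Units.ne_zero _) hc10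
  set w := pos m ⟨g, hg⟩ with hwdef
  have h4 : b⁻¹ * m.X s 1 * b = m.X (w r) c2 := by
    rw [← he, hge]
    calc b⁻¹ * (b * n * (u * m.hHom β) * m.X r 1 * (b * n * (u * m.hHom β))⁻¹) * b
        = n * ((u * m.hHom β) * m.X r 1 * (u * m.hHom β)⁻¹) * n⁻¹ := by group
      _ = m.X (w r) c2 * n * n⁻¹ := by rw [h2, h3]
      _ = _ := by group
  have hpos : m.N ≤ w r := by
    by_contra hneg
    rw [not_le] at hneg
    have h5 : m.X (w r) c2 ∈ D.borelSubgroup F ⊓ D.negUnipotent F := by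
      refine Subgroup.mem_inf.2 ⟨?_, m.X_mem_neg hneg c2⟩
      rw [← h4]
      exact mul_mem (mul_mem (inv_mem hb) (U_le_B (m.X_mem_pos hs 1))) hb
    rw [m.B_inf_V, Subgroup.mem_bot] at h5
    exact hc20 (m.X_eq_one (w r).2 h5)
  have h6 : b⁻¹ * m.X s 1 * b⁻¹⁻¹ = m.X (w r) c2 := by rw [_root_.inv_inv]; exact h4
  have h7 := conj_leading m (inv_mem hb) hs s.2 hpos (w r).2 one_ne_zero h6
  exact hw w hWg (Fin.ext h7)

end Cfsg.Agent.H14.Chev
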