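import Mathlib
import Cfsg.Agent.H14_InvH

set_option autoImplicit false
set_option linter.unusedSectionVars false

/-!
Centralizers of involutions in Chevalley groups in characteristic two: general lemmas on coordinates.
-/

namespace Cfsg.Agent.H14.Chev

open Cfsg Cfsg.Lie Cfsg.Lie.ChevalleyDatum Cfsg.Agent.H6 Cfsg.Agent.H6.Chev Cfsg.Agent.H6.Chev.Model
open scoped Matrix

variable {D : ChevalleyDatum} {F : Type*} [Field F] (m : Model D)

/-- every term has even coefficient or lies in `R` -/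
def EvT (R : ℕ → Prop) (L : List (ℕ × ℤ × ℕ × ℕ)) : Prop := ∀ c ∈ L, (2 : ℤ) ∣ c.2.1 ∨ R c.1

theorem EvT.word_mem [CharP F 2] {R : ℕ → Prop} {r s : ℕ} (h : EvT R (D.commTerms r s)) (a b : F) :
    m.word (D.commWord F r s a b) ∈ m.gen F R := by
  unfold Model.word ChevalleyDatum.commWord
  rw [List.map_map]
  apply Subgroup.list_prod_mem
  intro x hx
  obtain ⟨c, hc, rfl⟩ := List.mem_map.1 hx
  change m.X c.1 ((c.2.1 : F) * (-a) ^ c.2.2.1 * b ^ c.2.2.2) ∈ _
  rcases h c hc with h1 | h1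
  · have : (c.2.1 : F) = 0 := (CharP.intCast_eq_zero_iff F 2 _).2 (by exact_mod_cast h1)
    rw [this, zero_mul, zero_mul, m.X_zero]
    exact one_mem _
  · exact m.X_mem_gen h1 _

theorem X_conj_word {r s : ℕ} (hr : r < D.nroots) (hs : s < D.nroots) (hrs : s ≠ r) (hneg : s ≠ D.neg r) (a b : F) :
    (m.X r a)⁻¹ * m.X s b * m.X r a = m.X s b * m.word (D.commWord F r s a b) := by
  have := m.X_comm_formula hr hs hrs hneg a b
  rw [mul_assoc, this]; group

theorem conj_gen2 [CharP F 2] {R : ℕ → Prop} {k : ℕ} (hk : k < D.nroots) (h : ∀ s < D.nroots, R s → s ≠ D.neg k ∧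
    (s ≠ k → EvT R (D.commTerms k s))) (t : F) {g : GL D.Idx F} (hg : g ∈ m.gen F R) :
    (m.X k t)⁻¹ * g * m.X k t ∈ m.gen F R := by
  refine m.gen_induction (p := fun g => (m.X k t)⁻¹ * g * m.X k t ∈ m.gen F R) ?_ ?_ hg
  · rw [mul_one, inv_mul_cancel]; exact one_mem _
  · intro r hr hR a g _ ih
    have e : (m.X k t)⁻¹ * (m.X r a * g) * m.X k t = ((m.X k t)⁻¹ * m.X r a * m.X k t) * ((m.X k t)⁻¹ * g * m.X k t) := by group
    rw [e]
    refine mul_mem ?_ ih
    by_cases hrk : r = k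
    · subst hrk
      rw [mul_assoc, m.X_comm, ← mul_assoc, inv_mul_cancel, one_mul]
      exact m.X_mem_gen hR a
    · obtain ⟨h1, h2⟩ := h r hr hR
      rw [X_conj_word m hk hr hrk h1]
      exact mul_mem (m.X_mem_gen hR a) ((h2 hrk).word_mem m _ _)

theorem comm_of_EvT [CharP F 2] {r s : ℕ} (hr : r < D.nroots) (hs : s < D.nroots) (hrs : s ≠ r) (hneg : s ≠ D.neg r)
    (h : EvT (fun _ => False) (D.commTerms r s)) (a b : F) : Commute (m.X r a) (m.X s b) := by
  have h1 := X_conj_word m hr hs hrs hneg a b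
  have h2 := h.word_mem (F := F) m a b
  have h3 : m.gen F (fun _ => False) = ⊥ := by
    rw [eq_bot_iff]
    exact m.gen_le (fun r _ h => h.elim)
  rw [h3, Subgroup.mem_bot] at h2
  rw [h2, mul_one] at h1
  have : m.X s b * m.X r a = m.X r a * m.X s b := by
    calc m.X s b * m.X r a = m.X r a * ((m.X r a)⁻¹ * m.X s b * m.X r a) := by group
      _ = _ := by rw [h1]
  exact this.symm

/-! ### Coordinates -/

/-- the full list of positive roots -/
def LF (m : Model D) : List ℕ := List.range' m.N m.N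

theorem mem_LF {r : ℕ} : r ∈ LF m ↔ m.N ≤ r ∧ r < D.nroots := by
  unfold LF
  rw [List.mem_range'_1, m.nroots_eq]
  constructor <;> (rintro ⟨h1, h2⟩; exact ⟨h1, by omega⟩)

noncomputable def LR (R : ℕ → Prop) : List ℕ := by
  classical
  exact (LF m).filter (fun r => decide (R r))

theorem mem_LR {R : ℕ → Prop} {r : ℕ} : r ∈ LR m R ↔ (m.N ≤ r ∧ r < D.nroots) ∧ R r := by
  classical
  unfold LR
  rw [List.mem_filter, mem_LF]
  exact and_congr_right fun _ => decide_eq_true_iff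

theorem good_LR {R : ℕ → Prop} (h : ∀ r s, m.N ≤ r → r < s → s < D.nroots → R r → R s → ∀ c ∈ D.commTerms r s, R c.1) :
    m.Good (LR m R) where
  sorted := by
    unfold LR LF
    exact List.Pairwise.filter _ List.pairwise_lt_range'
  pos := fun r hr => (( mem_LR m).1 hr).1
  closed := by
    intro r hr s hs hrs c hc
    obtain ⟨⟨hrN, hr⟩, hR⟩ := (mem_LR m).1 hr
    obtain ⟨⟨hsN, hs⟩, hS⟩ := (mem_LR m).1 hs
    have hgt := m.comm_gt hrN hsN hr hs (Ne.symm hrs.ne) hc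
    exact (mem_LR m).2 ⟨⟨by omega, hgt.2.2⟩, h r s hrN hrs hs hR hS c hc⟩

theorem nf_filter (L : List ℕ) (p : ℕ → Bool) (t : ℕ → F) (h : ∀ r ∈ L, p r = false → t r = 0) :
    m.nf (L.filter p) t = m.nf L t := by
  induction L with
  | nil => rfl
  | cons k L ih =>
    have ih' := ih (fun r hr => h r (List.mem_cons_of_mem _ hr))
    rw [List.filter_cons, m.nf_cons]
    by_cases hp : p k = true
    · rw [if_pos hp, m.nf_cons, ih']
    · rw [if_neg hp, ih', h k List.mem_cons_self (by simpa using hp), m.X_zero, one_mul]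

theorem exists_coord {R : ℕ → Prop} (hR : ∀ r, R r → m.N ≤ r)
    (h : ∀ r s, m.N ≤ r → r < s → s < D.nroots → R r → R s → ∀ c ∈ D.commTerms r s, R c.1) {y : GL D.Idx F}
    (hy : y ∈ m.gen F R) : ∃ τ : ℕ → F, (∀ r, ¬ R r → τ r = 0) ∧ y = m.nf (LF m) τ := by
  classical
  have hg := good_LR m h
  have hy' : y ∈ m.UL F (LR m R) := by
    refine m.gen_mono ?_ hy
    intro r hr hRr
    exact (mem_LR m).2 ⟨⟨hR r hRr, hr⟩, hRr⟩
  obtain ⟨t, rfl⟩ := hg.exists_nf hy'
  refine ⟨fun r => if R r then t r else 0, fun r hr => if_neg hr, ?_⟩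
  have h1 : m.nf (LR m R) t = m.nf (LR m R) (fun r => if R r then t r else 0) := by
    apply m.nf_congr
    intro r hr
    rw [if_pos ((mem_LR m).1 hr).2]
  rw [h1]
  unfold LR
  apply nf_filter
  intro r _ hr
  exact if_neg (by simpa using hr)

theorem coord_unique {τ τ' : ℕ → F} (h : m.nf (LF m) τ = m.nf (LF m) τ') {r : ℕ} (hN : m.N ≤ r) (hr : r < D.nroots) :
    τ r = τ' r := m.good_pos.nf_inj h r ((mem_LF m).2 ⟨hN, hr⟩)

theorem nf_mem_gen (L : List ℕ) (t : ℕ → F) {R : ℕ → Prop} (h : ∀ r ∈ L, t r ≠ 0 → R r) : m.nf L t ∈ m.gen F R := by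
  induction L with
  | nil => exact one_mem _
  | cons k L ih =>
    rw [m.nf_cons]
    refine mul_mem ?_ (ih fun r hr => h r (List.mem_cons_of_mem _ hr))
    by_cases hk : t k = 0
    · rw [hk, m.X_zero]; exact one_mem _
    · exact m.X_mem_gen (h k List.mem_cons_self hk) _

/-- the hypothesis: `Sg` is a set of positive roots with pairwise trivial commutators -/
structure Ab (m : Model D) (Sg : ℕ → Prop) : Prop where
  pos : ∀ r, Sg r → m.N ≤ r ∧ r < D.nroots
  comm : ∀ r s, Sg r → Sg s → r ≠ s → D.commTerms r s = []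

variable {m}

theorem Ab.commute {Sg : ℕ → Prop} (h : Ab m Sg) {r s : ℕ} (hr : Sg r) (hs : Sg s) (a b : F) :
    Commute (m.X r a) (m.X s b) := by
  by_cases hrs : r = s
  · subst hrs; exact m.X_comm _ _ _
  · have h1 := (h.pos r hr)
    have h2 := (h.pos s hs)
    refine comm_of_nil m h1.2 h2.2 (Ne.symm hrs) ?_ (h.comm r s hr hs hrs) a b
    have := (m.neg_lt_iff h1.2).2 h1.1
    omega

theorem Ab.nf_add {Sg : ℕ → Prop} (h : Ab m Sg) {a b : ℕ → F} (ha : ∀ r, ¬ Sg r → a r = 0) (hb : ∀ r, ¬ Sg r → b r = 0)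
    (L : List ℕ) : m.nf L (a + b) = m.nf L a * m.nf L b := by
  induction L with
  | nil => exact (one_mul _).symm
  | cons k L ih =>
    rw [m.nf_cons, m.nf_cons, m.nf_cons, ih, Pi.add_apply, m.X_add]
    have hc : Commute (m.X k (b k)) (m.nf L a) := by
      by_cases hk : Sg k
      · unfold Model.nf Model.word
        rw [List.map_map]
        apply Commute.list_prod_right
        intro x hx
        obtain ⟨r, _, rfl⟩ := List.mem_map.1 hx
        change Commute _ (m.X r (a r))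
        by_cases hr : Sg r
        · exact h.commute hk hr _ _
        · rw [ha r hr, m.X_zero]; exact Commute.one_right _
      · rw [hb k hk, m.X_zero]; exact Commute.one_left _
    calc m.X k (a k) * m.X k (b k) * (m.nf L a * m.nf L b) = m.X k (a k) * (m.X k (b k) * m.nf L a) * m.nf L b := by group
      _ = _ := by rw [hc.eq]; group

variable (m)

open Classical in
theorem nf_single {s : ℕ} (c : F) : ∀ L : List ℕ, L.Nodup → m.nf L (fun r => if r = s then c else 0) = if s ∈ L then m.X s c else 1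
  | [], _ => by simp [Model.nf]
  | k :: L, h => by
    rw [List.nodup_cons] at h
    rw [m.nf_cons, nf_single c L h.2]
    by_cases hk : k = s
    · subst hk
      rw [if_pos rfl, if_neg h.1, mul_one, if_pos List.mem_cons_self]
    · rw [if_neg hk, m.X_zero, one_mul]
      have : (s ∈ k :: L) ↔ s ∈ L := by
        rw [List.mem_cons]
        exact ⟨fun h => h.resolve_left (fun h => hk h.symm), Or.inr⟩
      simp only [this]

theorem nodup_LF : (LF m).Nodup := List.nodup_range'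

variable {m}

open Classical in
/-- coordinates of a product of root elements in `Sg` -/
theorem Ab.coord_prod {Sg : ℕ → Prop} (h : Ab m Sg) (χ : ℕ → F) : ∀ S : List ℕ, S.Nodup → (∀ s ∈ S, Sg s) →
    (S.map fun s => m.X s (χ s)).prod = m.nf (LF m) (fun r => if r ∈ S then χ r else 0)
  | [], _, _ => by
    rw [List.map_nil, List.prod_nil]
    have : ∀ L : List ℕ, m.nf L (fun r => if r ∈ ([] : List ℕ) then χ r else 0) = 1 := by
      intro L
      induction L with
      | nil => rfl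
      | cons k L ih => rw [m.nf_cons, ih, if_neg (List.not_mem_nil), m.X_zero, one_mul]
    rw [this]
  | s :: S, hnd, hS => by
    rw [List.nodup_cons] at hnd
    rw [List.map_cons, List.prod_cons, h.coord_prod χ S hnd.2 (fun r hr => hS r (List.mem_cons_of_mem _ hr))]
    have hs := hS s List.mem_cons_self
    have h1 := nf_single m (s := s) (χ s) (LF m) (nodup_LF m)
    rw [if_pos ((mem_LF m).2 (h.pos s hs))] at h1
    rw [← h1, ← h.nf_add]
    · congr 1
      funext r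
      rw [Pi.add_apply]
      by_cases hr : r = s
      · subst hr
        rw [if_pos rfl, if_neg hnd.1, add_zero, if_pos List.mem_cons_self]
      · rw [if_neg hr, zero_add]
        simp only [List.mem_cons, hr, false_or]
    · intro r hr
      exact if_neg (by rintro rfl; exact hr hs)
    · intro r hr
      exact if_neg (fun h' => hr (hS r (List.mem_cons_of_mem _ h')))

variable (m)

theorem commTerms_w {w : Equiv.Perm (Fin D.nroots)} (hw : w ∈ m.Wg) {r s : Fin D.nroots} (hrs : s ≠ r) (hneg : s ≠ m.ng r)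
    (h : D.commTerms r s = []) : D.commTerms (w r) (w s) = [] := by
  obtain ⟨l, rfl⟩ := m.exists_wl hw
  clear hw
  induction l with
  | nil => exact h
  | cons i l ih =>
    have h1 : m.wl l s ≠ m.wl l r := fun h => hrs ((m.wl l).injective h)
    have h2 : m.wl l s ≠ m.ng (m.wl l r) := by
      rw [← (m.isW_wl l).neg]
      exact fun h => hneg ((m.wl l).injective h)
    rw [m.wl_cons, Equiv.Perm.mul_apply, Equiv.Perm.mul_apply, m.coe_sr, m.coe_sr,
      m.comm_refl i i.2 _ (m.wl l r).2 _ (m.wl l s).2 (fun h => h1 (Fin.ext h)) (fun h => h2 (Fin.ext h)), ih]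
    rfl

/-- one half of the key lemma -/
theorem supp_half {Sg : ℕ → Prop} (h : Ab m Sg) {n : GL D.Idx F} {w : Equiv.Perm (Fin D.nroots)} (hwg : w ∈ m.Wg)
    (hact : m.Acts n w) {τ τ' : ℕ → F} (hτ : ∀ r, ¬ Sg r → τ r = 0) (he : n * m.nf (LF m) τ * n⁻¹ = m.nf (LF m) τ')
    {r : Fin D.nroots} (hN : m.N ≤ r) (hr : τ' r ≠ 0) : ∃ s : Fin D.nroots, τ s ≠ 0 ∧ w s = r := by
  have hW := m.isW hwg
  set y := m.nf (LF m) τ with hy
  have hyU : y ∈ D.posUnipotent F := by rw [m.pos_eq_UL]; exact m.nf_mem _ _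
  have hy'U : m.nf (LF m) τ' ∈ D.posUnipotent F := by rw [m.pos_eq_UL]; exact m.nf_mem _ _
  -- step 1
  set R₁ : ℕ → Prop := fun r => m.N ≤ r ∧ ∃ h : r < D.nroots, m.N ≤ w ⟨r, h⟩ with hR₁
  obtain ⟨a, ha, b, hb, hab⟩ := m.U_eq_mul (F := F) (R₁ := R₁) (R₂ := fun r => m.N ≤ r ∧ ∃ h : r < D.nroots, (w ⟨r, h⟩ : ℕ) < m.N)
    (fun r hr hrn => by
      rcases le_or_gt m.N (w ⟨r, hrn⟩) with h | h
      · exact Or.inl ⟨hr, hrn, h⟩
      · exact Or.inr ⟨hr, hrn, h⟩) (fun r h => h.1) (fun r h => h.1) hyU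
  have hna : n * a * n⁻¹ ∈ D.posUnipotent F := by
    have h1 := m.map_gen_acts (F := F) hact (R := R₁) (R' := fun r => m.N ≤ r) (fun r hr => by
      obtain ⟨_, h2, h3⟩ := hr
      exact h3)
    rw [m.posUnipotent_eq]
    exact h1 ⟨a, ha, rfl⟩
  have hnb : n * b * n⁻¹ ∈ D.negUnipotent F := m.conj_Uw hact hb
  have hb1 : b = 1 := by
    have h1 : n * b * n⁻¹ ∈ D.borelSubgroup F ⊓ D.negUnipotent F := by
      refine Subgroup.mem_inf.2 ⟨?_, hnb⟩
      have h2 : n * b * n⁻¹ = (n * a * n⁻¹)⁻¹ * m.nf (LF m) τ' := by rw [← he, hab]; group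
      rw [h2]
      exact U_le_B (mul_mem (inv_mem hna) hy'U)
    rw [m.B_inf_V, Subgroup.mem_bot] at h1
    have : b = n⁻¹ * (n * b * n⁻¹) * n := by group
    rw [this, h1]; group
  have hyR : y ∈ m.gen F R₁ := by rw [hab, hb1, mul_one]; exact ha
  have hclosed : ∀ r s, m.N ≤ r → r < s → s < D.nroots → R₁ r → R₁ s → ∀ c ∈ D.commTerms r s, R₁ c.1 := by
    rintro r s hrN hrs hs ⟨_, hr, hrw⟩ ⟨hsN, _, hsw⟩ c hc
    have hgt := m.comm_gt hrN hsN hr hs (Ne.symm hrs.ne) hc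
    refine ⟨by omega, hgt.2.2, ?_⟩
    have hneg : s ≠ D.neg r := by
      have := (m.neg_lt_iff hr).2 hrN
      omega
    have h1 := m.comm_lt r hr s hs (Ne.symm hrs.ne) hneg c hc
    have key : m.lam (w ⟨c.1, hgt.2.2⟩) = c.2.2.1 * m.lam (w ⟨r, hr⟩) + c.2.2.2 * m.lam (w ⟨s, hs⟩) := by
      rw [m.lam_eq_evr, m.lam_eq_evr, m.lam_eq_evr, hW.evr, hW.evr, hW.evr]
      exact m.comm_lam hr hs (Ne.symm hrs.ne) hneg hc _
    have h2 := m.lam_pos (w ⟨r, hr⟩).2 hrw
    have h3 := m.lam_pos (w ⟨s, hs⟩).2 hsw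
    have h5 : (1 : ℤ) ≤ (c.2.2.1 : ℤ) := by exact_mod_cast h1.2.1
    have h6 : (1 : ℤ) ≤ (c.2.2.2 : ℤ) := by exact_mod_cast h1.2.2.1
    by_contra hc'
    rw [not_le] at hc'
    have h7 := m.lam_neg' hc'
    rw [key] at h7
    nlinarith
  obtain ⟨τ₁, hτ₁, hyτ⟩ := exists_coord m (R := R₁) (fun r h => h.1) hclosed hyR
  have hsupp : ∀ s : Fin D.nroots, m.N ≤ s → τ s ≠ 0 → m.N ≤ w s := by
    intro s hs h0
    have h1 : τ s = τ₁ s := coord_unique m hyτ hs s.2
    by_contra hc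
    apply h0
    rw [h1]
    apply hτ₁
    rintro ⟨_, _, h3⟩
    exact hc h3
  -- step 2
  set R₂ : ℕ → Prop := fun r => ∃ s : Fin D.nroots, m.N ≤ s ∧ τ s ≠ 0 ∧ (w s : ℕ) = r with hR₂
  have hSg : ∀ s : ℕ, τ s ≠ 0 → Sg s := fun s hs => by
    by_contra hc
    exact hs (hτ s hc)
  have hy2 : n * y * n⁻¹ ∈ m.gen F R₂ := by
    have h1 := m.map_gen_acts (F := F) hact (R := fun s => m.N ≤ s ∧ s < D.nroots ∧ τ s ≠ 0) (R' := R₂) (fun r hr =>
      ⟨r, hr.1, hr.2.2, rfl⟩)
    refine h1 ⟨y, ?_, rfl⟩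
    refine nf_mem_gen m _ _ fun r hr h0 => ?_
    rw [mem_LF] at hr
    exact ⟨hr.1, hr.2, h0⟩
  rw [he] at hy2
  obtain ⟨τ₂, hτ₂, hyτ₂⟩ := exists_coord m (R := R₂) (by
    rintro _ ⟨s, hs, h0, rfl⟩
    exact hsupp s hs h0) (by
    rintro _ _ hrN hrs hsn ⟨s₁, hs₁, h₁, rfl⟩ ⟨s₂, hs₂, h₂, rfl⟩ c hc
    exfalso
    have hne : s₂ ≠ s₁ := by
      rintro rfl
      exact lt_irrefl _ hrs
    have hng : s₂ ≠ m.ng s₁ := by
      intro h3
      have h4 := (m.ng_lt_iff s₁).2 hs₁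
      rw [← h3] at h4
      omega
    rw [commTerms_w m hwg hne hng (h.comm _ _ (hSg _ h₁) (hSg _ h₂) (fun h => hne (Fin.ext h.symm)))] at hc
    exact absurd hc (List.not_mem_nil)) hy2
  have h1 : τ' r = τ₂ r := coord_unique m hyτ₂ hN r.2
  rw [h1] at hr
  by_contra hc
  push Not at hc
  apply hr
  apply hτ₂
  rintro ⟨s, _, h0, h3⟩
  exact hc s h0 (Fin.ext h3)

theorem supp_key {Sg : ℕ → Prop} (h : Ab m Sg) {n : GL D.Idx F} {w : Equiv.Perm (Fin D.nroots)} (hwg : w ∈ m.Wg)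
    (hn : n ∈ D.monomialSubgroup F) (hact : m.Acts n w) {τ τ' : ℕ → F} (hτ' : ∀ r, ¬ Sg r → τ' r = 0)
    (he : n * m.nf (LF m) τ * n⁻¹ = m.nf (LF m) τ') {r : Fin D.nroots} (hN : m.N ≤ r) (hr : τ r ≠ 0) : Sg (w r) := by
  have h1 : n⁻¹ * m.nf (LF m) τ' * n⁻¹⁻¹ = m.nf (LF m) τ := by rw [← he]; group
  obtain ⟨s, hs, h2⟩ := supp_half m h (inv_mem hwg) (m.acts_inv hn hact) hτ' h1 hN hr
  have h3 : w r = s := by rw [← h2]; exact w.apply_symm_apply s
  rw [h3]
  by_contra hc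
  exact hs (hτ' _ hc)

end Cfsg.Agent.H14.Chev
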