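import Mathlib
import Cfsg.Agent.H14_CfA

set_option autoImplicit false
set_option linter.unusedSectionVars false

/-!
Centralizers of involutions in Chevalley groups in characteristic two: structure theorem.
-/

namespace Cfsg.Agent.H14.Chev

open Cfsg Cfsg.Lie Cfsg.Lie.ChevalleyDatum Cfsg.Agent.H6 Cfsg.Agent.H6.Chev Cfsg.Agent.H6.Chev.Model
open scoped Matrix

variable {D : ChevalleyDatum} {F : Type*} [Field F] (m : Model D)

/-- combinatorial data of an involution `∏ x_s(1)`, `s ∈ S` -/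
structure CD (m : Model D) (S : List ℕ) (Sg : ℕ → Prop) (J : Set ℕ) : Prop where
  ab : Ab m Sg
  sub : ∀ s ∈ S, Sg s
  nd : S.Nodup
  q0 : ∀ k, m.N ≤ k → k < D.nroots → ∀ s, Sg s → s ∉ S → s ≠ k → EvT (fun r => Sg r ∧ r ∉ S) (D.commTerms k s)
  s0 : ∀ k, m.N ≤ k → k < D.nroots → ∀ s ∈ S, s ≠ k → EvT (fun r => Sg r ∧ r ∉ S) (D.commTerms k s)
  wj : ∀ w ∈ m.Wg, (∀ s : Fin D.nroots, (s : ℕ) ∈ S → Sg (w s)) → w ∈ m.WJ J
  jc : ∀ k, D.InRootSub J k → ∀ s ∈ S, s ≠ k ∧ s ≠ D.neg k ∧ EvT (fun _ => False) (D.commTerms k s)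

/-- the product of the root elements -/
noncomputable def PS (m : Model D) (S : List ℕ) (χ : ℕ → F) : GL D.Idx F := (S.map fun s => m.X s (χ s)).prod

theorem PS_one (S : List ℕ) : PS m S (fun _ => (1 : F)) = xp m F S := rfl

variable {m} {S : List ℕ} {Sg : ℕ → Prop} {J : Set ℕ}

theorem Ab.gen_comm (h : Ab m Sg) {x y : GL D.Idx F} (hx : x ∈ m.gen F Sg) (hy : y ∈ m.gen F Sg) : Commute x y := by
  refine m.gen_induction (p := fun x => Commute x y) (Commute.one_left _) ?_ hx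
  intro r _ hR a g _ ih
  refine Commute.mul_left ?_ ih
  refine m.gen_induction (p := fun y => Commute (m.X r a) y) (Commute.one_right _) ?_ hy
  intro s _ hS b g' _ ih'
  exact (h.commute hR hS a b).mul_right ih'

theorem CD.q0_norm1 [CharP F 2] (h : CD m S Sg J) {k : ℕ} (hkN : m.N ≤ k) (hk : k < D.nroots) (a : F) {q : GL D.Idx F}
    (hq : q ∈ m.gen F (fun r => Sg r ∧ r ∉ S)) : (m.X k a)⁻¹ * q * m.X k a ∈ m.gen F (fun r => Sg r ∧ r ∉ S) := by
  refine conj_gen2 m hk ?_ a hq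
  rintro s hs ⟨h1, h2⟩
  refine ⟨?_, fun h3 => h.q0 k hkN hk s h1 h2 h3⟩
  have := (m.neg_lt_iff hk).2 hkN
  have := (h.ab.pos s h1).1
  omega

theorem CD.q0_norm [CharP F 2] (h : CD m S Sg J) {u : GL D.Idx F} (hu : u ∈ D.posUnipotent F) {q : GL D.Idx F}
    (hq : q ∈ m.gen F (fun r => Sg r ∧ r ∉ S)) : u⁻¹ * q * u ∈ m.gen F (fun r => Sg r ∧ r ∉ S) := by
  rw [m.posUnipotent_eq] at hu
  revert q
  refine m.gen_induction (p := fun u => ∀ {q : GL D.Idx F}, q ∈ m.gen F (fun r => Sg r ∧ r ∉ S) →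
    u⁻¹ * q * u ∈ m.gen F (fun r => Sg r ∧ r ∉ S)) ?_ ?_ hu
  · intro q hq
    rw [inv_one, one_mul, mul_one]; exact hq
  · intro k hk hkN a g _ ih q hq
    have e : (m.X k a * g)⁻¹ * q * (m.X k a * g) = g⁻¹ * ((m.X k a)⁻¹ * q * m.X k a) * g := by group
    rw [e]
    exact ih (h.q0_norm1 hkN hk a hq)

theorem CD.q0_le (_h : CD m S Sg J) : m.gen F (fun r => Sg r ∧ r ∉ S) ≤ m.gen F Sg :=
  m.gen_mono fun _ _ h => h.1

theorem CD.PS_mem (h : CD m S Sg J) (χ : ℕ → F) : ∀ S' : List ℕ, (∀ s ∈ S', s ∈ S) → PS m S' χ ∈ m.gen F Sg := by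
  intro S' hS'
  unfold PS
  apply Subgroup.list_prod_mem
  intro x hx
  obtain ⟨s, hs, rfl⟩ := List.mem_map.1 hx
  exact m.X_mem_gen (h.sub s (hS' s hs)) _

theorem CD.conj1 [CharP F 2] (h : CD m S Sg J) {k : ℕ} (hkN : m.N ≤ k) (hk : k < D.nroots) (a : F) (χ : ℕ → F) :
    ∀ S' : List ℕ, (∀ s ∈ S', s ∈ S) → ∃ q ∈ m.gen F (fun r => Sg r ∧ r ∉ S),
      (m.X k a)⁻¹ * PS m S' χ * m.X k a = PS m S' χ * q := by
  intro S'
  induction S' with
  | nil =>
    intro _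
    exact ⟨1, one_mem _, by simp [PS]⟩
  | cons s S' ih =>
    intro hS'
    obtain ⟨q', hq', he'⟩ := ih fun r hr => hS' r (List.mem_cons_of_mem _ hr)
    have hs := hS' s List.mem_cons_self
    obtain ⟨q, hq, he⟩ : ∃ q ∈ m.gen F (fun r => Sg r ∧ r ∉ S), (m.X k a)⁻¹ * m.X s (χ s) * m.X k a = m.X s (χ s) * q := by
      by_cases hsk : s = k
      · subst hsk
        refine ⟨1, one_mem _, ?_⟩
        rw [mul_assoc, m.X_comm]; group
      · refine ⟨_, (h.s0 k hkN hk s hs hsk).word_mem m a (χ s), ?_⟩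
        apply X_conj_word m hk (h.ab.pos s (h.sub s hs)).2 hsk
        have := (m.neg_lt_iff hk).2 hkN
        have := (h.ab.pos s (h.sub s hs)).1
        omega
    refine ⟨q * q', mul_mem hq hq', ?_⟩
    have hc : Commute q (PS m S' χ) :=
      h.ab.gen_comm (h.q0_le hq) (h.PS_mem χ S' fun r hr => hS' r (List.mem_cons_of_mem _ hr))
    have e1 : PS m (s :: S') χ = m.X s (χ s) * PS m S' χ := by simp [PS]
    rw [e1]
    calc (m.X k a)⁻¹ * (m.X s (χ s) * PS m S' χ) * m.X k a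
        = ((m.X k a)⁻¹ * m.X s (χ s) * m.X k a) * ((m.X k a)⁻¹ * PS m S' χ * m.X k a) := by group
      _ = m.X s (χ s) * (q * PS m S' χ) * q' := by rw [he, he']; group
      _ = _ := by rw [hc.eq]; group

theorem CD.conj [CharP F 2] (h : CD m S Sg J) (χ : ℕ → F) {u : GL D.Idx F} (hu : u ∈ D.posUnipotent F) :
    ∃ q ∈ m.gen F (fun r => Sg r ∧ r ∉ S), u⁻¹ * PS m S χ * u = PS m S χ * q := by
  have hu' := hu
  rw [m.posUnipotent_eq] at hu'
  refine m.gen_induction (p := fun u => ∃ q ∈ m.gen F (fun r => Sg r ∧ r ∉ S), u⁻¹ * PS m S χ * u = PS m S χ * q) ?_ ?_ hu'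
  · exact ⟨1, one_mem _, by group⟩
  · intro k hk hkN a g hg ih
    obtain ⟨q1, hq1, he1⟩ := h.conj1 hkN hk a χ S fun s hs => hs
    obtain ⟨q2, hq2, he2⟩ := ih
    have hgU : g ∈ D.posUnipotent F := by rw [m.posUnipotent_eq]; exact hg
    refine ⟨q2 * (g⁻¹ * q1 * g), mul_mem hq2 (h.q0_norm hgU hq1), ?_⟩
    calc (m.X k a * g)⁻¹ * PS m S χ * (m.X k a * g) = g⁻¹ * ((m.X k a)⁻¹ * PS m S χ * m.X k a) * g := by group
      _ = (g⁻¹ * PS m S χ * g) * (g⁻¹ * q1 * g) := by rw [he1]; group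
      _ = _ := by rw [he2]; group

theorem CD.coords (h : CD m S Sg J) (χ : ℕ → F) {q : GL D.Idx F} (hq : q ∈ m.gen F (fun r => Sg r ∧ r ∉ S)) :
    ∃ τ : ℕ → F, (∀ r, ¬ Sg r → τ r = 0) ∧ (∀ s ∈ S, τ s = χ s) ∧ PS m S χ * q = m.nf (LF m) τ := by
  classical
  obtain ⟨β, hβ, rfl⟩ := exists_coord m (R := fun r => Sg r ∧ r ∉ S) (fun r hr => (h.ab.pos r hr.1).1) (by
    rintro r s _ hrs _ ⟨hr, _⟩ ⟨hs, _⟩ c hc
    rw [h.ab.comm r s hr hs hrs.ne] at hc
    exact absurd hc List.not_mem_nil) hq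
  have h1 := h.ab.coord_prod χ S h.nd h.sub
  refine ⟨(fun r => if r ∈ S then χ r else 0) + β, ?_, ?_, ?_⟩
  · intro r hr
    rw [Pi.add_apply, hβ r fun h => hr h.1, if_neg fun h' => hr (h.sub r h'), add_zero]
  · intro s hs
    rw [Pi.add_apply, hβ s fun h => h.2 hs, if_pos hs, add_zero]
  · rw [h.ab.nf_add (fun r hr => if_neg fun h' => hr (h.sub r h')) (fun r hr => hβ r fun h => hr h.1), ← h1]
    rfl

/-- the centralizer lies in the parabolic subgroup -/
theorem CD.pos_mem [CharP F 2] (h : CD m S Sg J) {g : ↥(D.group F)}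
    (hc : (g : GL D.Idx F) * PS m S (fun _ => (1 : F)) = PS m S (fun _ => (1 : F)) * (g : GL D.Idx F)) : (g : GL D.Idx F) ∈ D.parabolicSubgroup F J := by
  rw [mem_parabolic_iff m]
  obtain ⟨b, hb, n, hn, b', hb', hact, hge⟩ := pos_spec m g
  have hWg := Cfsg.Agent.H14.Chev.pos_mem m g
  obtain ⟨u, hu, h1, hh1, rfl⟩ := m.mem_B.1 hb
  obtain ⟨u', hu', h2, hh2, he2⟩ := m.mem_B.1 (inv_mem hb')
  set t0 := PS m S (fun _ => (1 : F)) with ht0
  set w := pos m g with hw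
  set n' : GL D.Idx F := h1 * n * h2⁻¹ with hn'
  have hn'N : n' ∈ D.monomialSubgroup F := mul_mem (mul_mem (m.H_le_N hh1) hn) (m.H_le_N (inv_mem hh2))
  have hact' : m.Acts n' w := by
    have := ((m.acts_h hh1).mul hact).mul (m.acts_h (inv_mem hh2))
    rwa [one_mul, mul_one] at this
  have hb'e : b' = h2⁻¹ * u'⁻¹ := by rw [← inv_inj, he2]; group
  have hge' : (g : GL D.Idx F) = u * n' * u'⁻¹ := by rw [hge, hb'e, hn']; group
  obtain ⟨q, hq, e1⟩ := h.conj (fun _ => (1 : F)) hu'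
  obtain ⟨q', hq', e2⟩ := h.conj (fun _ => (1 : F)) hu
  obtain ⟨τ, hτ, hτS, e3⟩ := h.coords (fun _ => (1 : F)) hq
  obtain ⟨τ', hτ', hτ'S, e4⟩ := h.coords (fun _ => (1 : F)) hq'
  have e5 : n' * m.nf (LF m) τ * n'⁻¹ = m.nf (LF m) τ' := by
    rw [← e3, ← e4, ← e1, ← e2]
    have h3 : u * n' * u'⁻¹ * t0 = t0 * (u * n' * u'⁻¹) := by rw [← hge']; exact hc
    calc n' * (u'⁻¹ * t0 * u') * n'⁻¹ = u⁻¹ * (u * n' * u'⁻¹ * t0) * u' * n'⁻¹ := by group
      _ = u⁻¹ * t0 * u := by rw [h3]; group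
  apply h.wj w hWg
  intro s hs
  exact supp_key m h.ab hWg hn'N hact' hτ' e5 (h.ab.pos s (h.sub s hs)).1 (by rw [hτS s hs]; exact one_ne_zero)

theorem CD.levi_comm [CharP F 2] (h : CD m S Sg J) {l : GL D.Idx F} (hl : l ∈ m.gen F (fun r => D.InRootSub J r))
    {s : ℕ} (hs : s ∈ S) (a : F) : Commute l (m.X s a) := by
  refine m.gen_induction (p := fun l => Commute l (m.X s a)) (Commute.one_left _) ?_ hl
  intro r hr hR c g _ ih
  obtain ⟨h1, h2, h3⟩ := h.jc r hR s hs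
  exact (comm_of_EvT m hr (h.ab.pos s (h.sub s hs)).2 h1 h2 h3 c a).mul_left ih

theorem CD.levi_comm' [CharP F 2] (h : CD m S Sg J) {l : GL D.Idx F} (hl : l ∈ m.gen F (fun r => D.InRootSub J r))
    (χ : ℕ → F) : Commute l (PS m S χ) := by
  unfold PS
  apply Commute.list_prod_right
  intro x hx
  obtain ⟨s, hs, rfl⟩ := List.mem_map.1 hx
  exact h.levi_comm hl hs _

theorem hHom_PS (b : ℕ → Fˣ) (χ : ℕ → F) (S : List ℕ) :
    m.hHom b * PS m S χ = PS m S (fun s => ((m.chi (hC D b) s : Fˣ) : F) * χ s) * m.hHom b := by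
  induction S with
  | nil => simp [PS]
  | cons s S ih =>
    have e1 : ∀ χ : ℕ → F, PS m (s :: S) χ = m.X s (χ s) * PS m S χ := fun χ => by simp [PS]
    rw [e1, e1, ← mul_assoc]
    have h1 : m.hHom b * m.X s (χ s) = m.X s (((m.chi (hC D b) s : Fˣ) : F) * χ s) * m.hHom b := by
      rw [m.hHom_apply]; exact m.dm_X _ _ _
    rw [h1, mul_assoc, ih, mul_assoc]

theorem CD.struct [CharP F 2] (h : CD m S Sg J) {g : GL D.Idx F} (hg : g ∈ D.group F)
    (hc : g * PS m S (fun _ => 1) = PS m S (fun _ => 1) * g) :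
    ∃ z ∈ D.unipotentRadical F J, ∃ l ∈ m.gen F (fun r => D.InRootSub J r), ∃ b : ℕ → Fˣ, g = z * l * m.hHom b ∧
      (∀ s ∈ S, m.chi (hC D b) s = 1) ∧ z * PS m S (fun _ => 1) = PS m S (fun _ => 1) * z := by
  have hP := h.pos_mem (g := ⟨g, hg⟩) hc
  change g ∈ D.parabolicSubgroup F J at hP
  set t0 := PS m S (fun _ => (1 : F)) with ht0
  have hPn := m.parabolic_norm (F := F) J
  rw [← m.radical_sup_levi, sup_comm] at hP
  have hLP : D.leviSubgroup F J ≤ D.parabolicSubgroup F J := by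
    rw [← m.radical_sup_levi]; exact le_sup_right
  obtain ⟨a, ha, z0, hz0, rfl⟩ := (mem_sup_norm (hLP.trans hPn)).1 hP
  have hz : a * z0 * a⁻¹ ∈ D.unipotentRadical F J :=
    (Subgroup.mem_normalizer_iff.1 (hPn (hLP ha)) z0).1 hz0
  set z := a * z0 * a⁻¹ with hzdef
  rw [m.levi_eq] at ha
  obtain ⟨h1, hh1, l0, hl0, rfl⟩ := (mem_sup_norm (m.H_le_normalizer_gen (F := F) (fun r => D.InRootSub J r))).1 ha
  have hl : h1 * l0 * h1⁻¹ ∈ m.gen F (fun r => D.InRootSub J r) :=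
    (Subgroup.mem_normalizer_iff.1 (m.H_le_normalizer_gen (F := F) (fun r => D.InRootSub J r) hh1) l0).1 hl0
  obtain ⟨b, rfl⟩ := m.mem_H.1 hh1
  set l := m.hHom b * l0 * (m.hHom b)⁻¹ with hldef
  have hge : m.hHom b * l0 * z0 = z * l * m.hHom b := by rw [hzdef, hldef]; group
  have hzU : z ∈ D.posUnipotent F := m.radical_le_U J hz
  rw [hge] at hc
  have h2 := hHom_PS (m := m) b (fun _ => (1 : F)) S
  rw [← ht0] at h2
  set χ : ℕ → F := fun s => ((m.chi (hC D b) s : Fˣ) : F) * 1 with hχ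
  have h3 := h.levi_comm' hl χ
  have h4 : z * PS m S χ = t0 * z := by
    have h5 : z * PS m S χ * (l * m.hHom b) = t0 * z * (l * m.hHom b) := by
      calc z * PS m S χ * (l * m.hHom b) = z * (PS m S χ * l) * m.hHom b := by group
        _ = z * l * (PS m S χ * m.hHom b) := by rw [← h3.eq]; group
        _ = z * l * m.hHom b * t0 := by rw [← h2]; group
        _ = t0 * z * (l * m.hHom b) := by rw [hc]; group
    exact mul_right_cancel h5
  obtain ⟨q, hq, e1⟩ := h.conj (fun _ => (1 : F)) hzU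
  obtain ⟨τ, hτ, hτS, e3⟩ := h.coords (fun _ => (1 : F)) hq
  obtain ⟨τ', hτ', hτ'S, e4⟩ := h.coords χ (one_mem _)
  have e5 : m.nf (LF m) τ' = m.nf (LF m) τ := by
    rw [← e3, ← e4, ← e1, mul_one, mul_assoc, ← h4]; group
  have h6 : ∀ s ∈ S, m.chi (hC D b) s = 1 := by
    intro s hs
    have h7 := coord_unique m e5 (h.ab.pos s (h.sub s hs)).1 (h.ab.pos s (h.sub s hs)).2
    rw [hτ'S s hs, hτS s hs, hχ] at h7
    simp only [mul_one] at h7
    exact Units.ext h7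
  refine ⟨z, hz, l, hl, b, hge, h6, ?_⟩
  rw [← h4]
  congr 1
  rw [ht0]
  unfold PS
  congr 1
  apply List.map_congr_left
  intro s hs
  rw [hχ]
  simp only [h6 s hs, Units.val_one, mul_one]

theorem CD.eq [CharP F 2] (h : CD m S Sg J) {Ψ : ℕ → Prop}
    (hH : ∀ b : ℕ → Fˣ, (∀ s ∈ S, m.chi (hC D b) s = 1) → m.hHom b ∈ m.gen F (fun r => D.InRootSub J r))
    (hZ : ∀ z ∈ D.unipotentRadical F J, z * PS m S (fun _ => 1) = PS m S (fun _ => 1) * z → z ∈ m.gen F Ψ)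
    (hΨ : ∀ r < D.nroots, Ψ r → ∀ s ∈ S, s = r ∨ (s ≠ r ∧ s ≠ D.neg r ∧ EvT (fun _ => False) (D.commTerms r s))) :
    D.group F ⊓ Subgroup.centralizer {PS m S (fun _ => (1 : F))} = m.gen F Ψ ⊔ m.gen F (fun r => D.InRootSub J r) := by
  apply le_antisymm
  · rintro g ⟨hg, hgc⟩
    have hc : g * PS m S (fun _ => 1) = PS m S (fun _ => 1) * g := Subgroup.mem_centralizer_singleton_iff.1 hgc
    obtain ⟨z, hz, l, hl, b, rfl, hb, hzc⟩ := h.struct hg hc
    exact mul_mem (mul_mem (Subgroup.mem_sup_left (hZ z hz hzc)) (Subgroup.mem_sup_right hl)) (Subgroup.mem_sup_right (hH b hb))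
  · apply sup_le
    · apply m.gen_le
      intro r hr hR t
      refine Subgroup.mem_inf.2 ⟨m.X_mem_group r t, Subgroup.mem_centralizer_singleton_iff.2 ?_⟩
      have : Commute (m.X r t) (PS m S (fun _ => (1 : F))) := by
        unfold PS
        apply Commute.list_prod_right
        intro x hx
        obtain ⟨s, hs, rfl⟩ := List.mem_map.1 hx
        rcases hΨ r hr hR s hs with h1 | ⟨h1, h2, h3⟩
        · rw [h1]; exact m.X_comm _ _ _
        · exact comm_of_EvT m hr (h.ab.pos s (h.sub s hs)).2 h1 h2 h3 _ _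
      exact this.eq
    · apply m.gen_le
      intro r hr hR t
      refine Subgroup.mem_inf.2 ⟨m.X_mem_group r t, Subgroup.mem_centralizer_singleton_iff.2 ?_⟩
      exact (h.levi_comm' (m.X_mem_gen (R := fun r => D.InRootSub J r) hR t) _).eq

/-! ### Elements of the radical -/

/-- `A` together with the roots of `K` are the roots of the radical -/
structure AK (m : Model D) (A : List ℕ) (K Rd : ℕ → Prop) : Prop where
  Apos : ∀ a ∈ A, m.N ≤ a ∧ a < D.nroots
  Kpos : ∀ a, K a → m.N ≤ a ∧ a < D.nroots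
  cov : ∀ r, Rd r → r ∈ A ∨ K r
  kn : ∀ k, (k ∈ A ∨ K k) → ∀ s, K s → s ≠ k → EvT K (D.commTerms k s)
  aa : ∀ a ∈ A, ∀ b ∈ A, a ≠ b → EvT K (D.commTerms a b)

theorem AK.norm [CharP F 2] {A : List ℕ} {K Rd : ℕ → Prop} (h : AK m A K Rd) {k : ℕ} (hk : k ∈ A ∨ K k) (a : F)
    {q : GL D.Idx F} (hq : q ∈ m.gen F K) : (m.X k a)⁻¹ * q * m.X k a ∈ m.gen F K := by
  have hkp : m.N ≤ k ∧ k < D.nroots := hk.elim (h.Apos k) (h.Kpos k)
  refine conj_gen2 m hkp.2 ?_ a hq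
  intro s hs hK
  refine ⟨?_, fun h3 => h.kn k hk s hK h3⟩
  have := (m.neg_lt_iff hkp.2).2 hkp.1
  have := (h.Kpos s hK).1
  omega

theorem AK.norm_list [CharP F 2] {A : List ℕ} {K Rd : ℕ → Prop} (h : AK m A K Rd) (c : ℕ → F) : ∀ L : List ℕ, (∀ a ∈ L, a ∈ A) →
    ∀ {q : GL D.Idx F}, q ∈ m.gen F K → (PS m L c)⁻¹ * q * PS m L c ∈ m.gen F K := by
  intro L
  induction L with
  | nil => intro _ q hq; simpa [PS] using hq
  | cons k L ih =>
    intro hL q hq
    have e1 : PS m (k :: L) c = m.X k (c k) * PS m L c := by simp [PS]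
    have e2 : (PS m (k :: L) c)⁻¹ * q * PS m (k :: L) c = (PS m L c)⁻¹ * ((m.X k (c k))⁻¹ * q * m.X k (c k)) * PS m L c := by
      rw [e1]; group
    rw [e2]
    exact ih (fun a ha => hL a (List.mem_cons_of_mem _ ha)) (h.norm (Or.inl (hL k List.mem_cons_self)) _ hq)

theorem AK.absorb [CharP F 2] {A : List ℕ} {K Rd : ℕ → Prop} (h : AK m A K Rd) {r : ℕ} (t : F) : ∀ (L : List ℕ) (c : ℕ → F),
    L.Nodup → (∀ a ∈ L, a ∈ A) → r ∈ L → ∃ c' : ℕ → F, (∀ a, a ∉ L → c' a = c a) ∧ ∃ q ∈ m.gen F K, m.X r t * PS m L c = PS m L c' * q := by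
  classical
  intro L
  induction L with
  | nil => intro _ _ _ hr; exact absurd hr List.not_mem_nil
  | cons k L ih =>
    intro c hnd hL hr
    rw [List.nodup_cons] at hnd
    have e1 : ∀ c : ℕ → F, PS m (k :: L) c = m.X k (c k) * PS m L c := fun c => by simp [PS]
    by_cases hrk : r = k
    · subst hrk
      refine ⟨Function.update c r (t + c r), fun a ha => ?_, 1, one_mem _, ?_⟩
      · rw [Function.update_of_ne]
        rintro rfl
        exact ha List.mem_cons_self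
      · rw [e1, e1, Function.update_self, m.X_add, mul_one, mul_assoc]
        congr 2
        unfold PS
        congr 1
        apply List.map_congr_left
        intro s hs
        rw [Function.update_of_ne]
        rintro rfl
        exact hnd.1 hs
    · have hrL : r ∈ L := (List.mem_cons.1 hr).resolve_left hrk
      obtain ⟨c', hc', q, hq, he⟩ := ih c hnd.2 (fun a ha => hL a (List.mem_cons_of_mem _ ha)) hrL
      have hkA := hL k List.mem_cons_self
      have hrA := hL r hr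
      have hkp := h.Apos k hkA
      have hrp := h.Apos r hrA
      -- `X_r X_k = X_k X_r w`
      have h1 := X_conj_word (F := F) m hkp.2 hrp.2 hrk (by
        have := (m.neg_lt_iff hkp.2).2 hkp.1
        omega) (c k) t
      have h2 := (h.aa k hkA r hrA (Ne.symm hrk)).word_mem (F := F) m (c k) t
      set v := m.word (D.commWord F k r (c k) t) with hv
      have h3 : m.X r t * m.X k (c k) = m.X k (c k) * m.X r t * v := by
        rw [mul_assoc, ← h1]; group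
      refine ⟨c', fun a ha => hc' a fun h' => ha (List.mem_cons_of_mem _ h'), q * ((PS m L c)⁻¹ * v * PS m L c),
        mul_mem hq (h.norm_list c L (fun a ha => hL a (List.mem_cons_of_mem _ ha)) h2), ?_⟩
      rw [e1, e1, hc' k hnd.1]
      calc m.X r t * (m.X k (c k) * PS m L c) = (m.X r t * m.X k (c k)) * PS m L c := by group
        _ = m.X k (c k) * (m.X r t * PS m L c) * ((PS m L c)⁻¹ * v * PS m L c) := by rw [h3]; group
        _ = _ := by rw [he]; group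

theorem AK.form [CharP F 2] {A : List ℕ} {K Rd : ℕ → Prop} (h : AK m A K Rd) (hA : A.Nodup) {z : GL D.Idx F} (hz : z ∈ m.gen F Rd) :
    ∃ c : ℕ → F, ∃ q ∈ m.gen F K, z = PS m A c * q := by
  refine m.gen_induction (p := fun z => ∃ c : ℕ → F, ∃ q ∈ m.gen F K, z = PS m A c * q) ?_ ?_ hz
  · refine ⟨fun _ => 0, 1, one_mem _, ?_⟩
    have : ∀ L : List ℕ, PS m L (fun _ => (0 : F)) = 1 := by
      intro L
      induction L with
      | nil => rfl
      | cons k L ih =>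
        have e1 : PS m (k :: L) (fun _ => (0 : F)) = m.X k 0 * PS m L (fun _ => (0 : F)) := by simp [PS]
        rw [e1, ih, m.X_zero, mul_one]
    rw [this, mul_one]
  · rintro r hr hR t g _ ⟨c, q, hq, rfl⟩
    rcases h.cov r hR with hrA | hrK
    · obtain ⟨c', _, q', hq', he⟩ := h.absorb t A c hA (fun a ha => ha) hrA
      exact ⟨c', q' * q, mul_mem hq' hq, by rw [← mul_assoc, he, mul_assoc]⟩
    · refine ⟨c, ((PS m A c)⁻¹ * m.X r t * PS m A c) * q, mul_mem (h.norm_list c A (fun a ha => ha) (m.X_mem_gen hrK t)) hq, ?_⟩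
      group

end Cfsg.Agent.H14.Chev
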