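import Mathlib
import Cfsg.Agent.H14_CfB
import Cfsg.Agent.H14_ChevB2
import Cfsg.Agent.H6_ChevTabF4
import Cfsg.Agent.H6_ChevTabG2

set_option autoImplicit false
set_option linter.unusedSectionVars false
set_option maxRecDepth 100000

/-!
Centralizers of involutions in Chevalley groups in characteristic two: types F4 and G2.
-/

namespace Cfsg.Agent.H6.Chev.Tab

variable (t : Tab)

def memB (l : List ℕ) (r : ℕ) : Bool := l.any fun a => Nat.beq a r

def evB (R : ℕ → Bool) (L : List (ℕ × ℤ × ℕ × ℕ)) : Bool := L.all fun c => Nat.beq (Nat.land c.2.1.natAbs 1) 0 || R c.1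

/-- check of the combinatorial data -/
def ckCD (S G JL : List ℕ) : Bool :=
  (G.all fun r => Nat.ble t.N r && Nat.blt r t.n) && (
  (G.all fun r => G.all fun s => Nat.beq r s || nilB (t.cm r s)) && (
  (S.all fun s => memB G s) && (
  (allNat t.n fun k => !(Nat.ble t.N k) || G.all fun s => Nat.beq s k || evB (fun r => memB G r && !(memB S r)) (t.cm k s)) &&
  (JL.all fun k => S.all fun s => !(Nat.beq s k) && (!(Nat.beq s (t.ng k)) && evB (fun _ => false) (t.cm k s))))))

def ckJL (JI JL : List ℕ) : Bool :=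
  allNat t.n fun r => (allNat t.l fun i => memB JI i || intEq (t.f r i) 0).xor (!(memB JL r))

def ckAK (A K JL : List ℕ) : Bool :=
  (A.all fun r => Nat.ble t.N r && Nat.blt r t.n) && (
  (K.all fun r => Nat.ble t.N r && Nat.blt r t.n) && (
  (allNat t.n fun r => !(Nat.ble t.N r) || (memB JL r || (memB A r || memB K r))) && (
  ((A ++ K).all fun k => K.all fun s => Nat.beq s k || evB (memB K) (t.cm k s)) &&
  (A.all fun k => A.all fun s => Nat.beq k s || evB (memB K) (t.cm k s)))))

def ckPsi (S Ψ : List ℕ) : Bool := Ψ.all fun r => S.all fun s => Nat.beq s r || (!(Nat.beq s (t.ng r)) && evB (fun _ => false) (t.cm r s))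

end Cfsg.Agent.H6.Chev.Tab

namespace Cfsg.Agent.H14.Chev

open Cfsg Cfsg.Lie Cfsg.Lie.ChevalleyDatum Cfsg.Agent.H6 Cfsg.Agent.H6.Chev Cfsg.Agent.H6.Chev.Model
open scoped Matrix

variable {t : Tab} {D : ChevalleyDatum} {F : Type*} [Field F] (m : Model D)

theorem memB_iff {l : List ℕ} {r : ℕ} : Tab.memB l r = true ↔ r ∈ l := by
  unfold Tab.memB
  rw [List.any_eq_true]
  constructor
  · rintro ⟨a, ha, h⟩; rw [← Nat.eq_of_beq_eq_true h]; exact ha
  · intro h; exact ⟨r, h, Nat.beq_refl r⟩

theorem evB_iff {R : ℕ → Bool} {R' : ℕ → Prop} (hR : ∀ r, R r = true → R' r) {L : List (ℕ × ℤ × ℕ × ℕ)}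
    (h : Tab.evB R L = true) : EvT R' L := by
  intro c hc
  have h1 := List.all_eq_true.1 h c hc
  rw [Bool.or_eq_true] at h1
  rcases h1 with h1 | h1
  · left
    have h2 : Nat.land c.2.1.natAbs 1 = 0 := Nat.eq_of_beq_eq_true h1
    have h3 : c.2.1.natAbs &&& 1 = 0 := h2
    rw [Nat.and_one_is_mod] at h3
    omega
  · right; exact hR _ h1

theorem inRoot_iff (b : t.Base D) (hf : ∀ r i, m.coef r i = t.f r i) {JI JL : List ℕ} (h : t.ckJL JI JL = true) {r : ℕ}
    (hr : r < D.nroots) : D.InRootSub {i | i ∈ JI} r ↔ r ∈ JL := by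
  have h1 := allNat_iff h r (by rw [← b.nroots]; exact hr)
  rw [m.inRootSub_iff' hr]
  have key : (allNat t.l fun i => Tab.memB JI i || intEq (t.f r i) 0) = true ↔ ∀ i < D.rank, i ∉ ({i | i ∈ JI} : Set ℕ) → m.coef r i = 0 := by
    rw [b.rank]
    constructor
    · intro h2 i hi hn
      have h3 := allNat_iff h2 i hi
      rw [Bool.or_eq_true, memB_iff] at h3
      rw [hf]
      exact intEq_iff (h3.resolve_left hn)
    · intro h2
      have : ∀ n ≤ t.l, (allNat n fun i => Tab.memB JI i || intEq (t.f r i) 0) = true := by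
        intro n
        induction n with
        | zero => intro _; rfl
        | succ n ih =>
          intro hn
          change ((Tab.memB JI n || intEq (t.f r n) 0) && allNat n fun i => Tab.memB JI i || intEq (t.f r i) 0) = true
          rw [Bool.and_eq_true, Bool.or_eq_true, memB_iff]
          refine ⟨?_, ih (by omega)⟩
          by_cases hm : n ∈ JI
          · exact Or.inl hm
          · right
            rw [← hf, h2 n (by omega) hm]
            rfl
      exact this _ le_rfl
  rw [← key, ← memB_iff]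
  revert h1
  generalize (allNat t.l fun i => Tab.memB JI i || intEq (t.f r i) 0) = x
  generalize Tab.memB JL r = y
  revert x y
  decide

theorem ng_lt2 {t : Tab} {r : ℕ} (hr : r < t.n) : t.ng r < t.n := by
  unfold Tab.ng
  change t.n - 1 - r < t.n
  omega

theorem cd_of_ck (b : t.Base D) (ck : t.Checks D) (hf : ∀ r i, m.coef r i = t.f r i) {S G JI JL : List ℕ} (hS : S.Nodup)
    (h : t.ckCD S G JL = true) (hJ : t.ckJL JI JL = true)
    (hw : ∀ w ∈ m.Wg, (∀ s : Fin D.nroots, (s : ℕ) ∈ S → (w s : ℕ) ∈ G) → w ∈ m.WJ {i | i ∈ JI}) :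
    CD m S (fun r => r ∈ G) {i | i ∈ JI} := by
  unfold Tab.ckCD at h
  simp only [Bool.and_eq_true] at h
  obtain ⟨h1, h2, h3, h4, h5⟩ := h
  have hn := b.nroots
  have hN : m.N = t.N := by have := m.nroots_eq; have := b.n2; omega
  have hpos : ∀ r, r ∈ G → m.N ≤ r ∧ r < D.nroots := by
    intro r hr
    have := List.all_eq_true.1 h1 r hr
    rw [Bool.and_eq_true] at this
    rw [hN, hn]
    exact ⟨Nat.le_of_ble_eq_true this.1, Nat.le_of_ble_eq_true this.2⟩
  have hsub : ∀ s ∈ S, s ∈ G := fun s hs => memB_iff.1 (List.all_eq_true.1 h3 s hs)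
  have hR : ∀ r, (Tab.memB G r && !(Tab.memB S r)) = true → r ∈ G ∧ r ∉ S := by
    intro r hr
    rw [Bool.and_eq_true, memB_iff] at hr
    refine ⟨hr.1, fun h => ?_⟩
    have := memB_iff.2 h
    rw [this] at hr
    exact absurd hr.2 (by decide)
  have hq : ∀ k, m.N ≤ k → k < D.nroots → ∀ s, s ∈ G → s ≠ k → EvT (fun r => r ∈ G ∧ r ∉ S) (D.commTerms k s) := by
    intro k hkN hk s hs hsk
    have h6 := allNat_iff h4 k (by omega)
    rw [hN] at hkN
    rw [Nat.ble_eq_true_of_le hkN] at h6
    have h7 : (G.all fun s => Nat.beq s k || Tab.evB (fun r => Tab.memB G r && !(Tab.memB S r)) (t.cm k s)) = true := by simpa using h6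
    have h8 := List.all_eq_true.1 h7 s hs
    rw [Bool.or_eq_true] at h8
    rcases h8 with h8 | h8
    · exact absurd (Nat.eq_of_beq_eq_true h8) hsk
    · rw [Tab.commTerms_eq b ck (by omega) (by have := (hpos s hs).2; omega)]
      exact evB_iff hR h8
  refine ⟨⟨hpos, ?_⟩, hsub, hS, fun k hkN hk s hs _ hsk => hq k hkN hk s hs hsk,
    fun k hkN hk s hs hsk => hq k hkN hk s (hsub s hs) hsk, hw, ?_⟩
  · intro r s hr hs hrs
    have h6 := List.all_eq_true.1 (List.all_eq_true.1 h2 r hr) s hs
    rw [Bool.or_eq_true] at h6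
    rw [Tab.commTerms_eq b ck (by have := (hpos r hr).2; omega) (by have := (hpos s hs).2; omega)]
    exact nilB_iff (h6.resolve_left fun h => hrs (Nat.eq_of_beq_eq_true h))
  · intro k hk s hs
    have hkn : k < D.nroots := hk.1
    have hkJ := (inRoot_iff m b hf hJ hkn).1 hk
    have h6 := List.all_eq_true.1 (List.all_eq_true.1 h5 k hkJ) s hs
    simp only [Bool.and_eq_true] at h6
    obtain ⟨h7, h8, h9⟩ := h6
    refine ⟨Tab.beq_ne h7, ?_, ?_⟩
    · rw [b.ng_eq (by omega)]; exact Tab.beq_ne h8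
    · rw [Tab.commTerms_eq b ck (by omega) (by have := (hpos s (hsub s hs)).2; omega)]
      exact evB_iff (fun _ h => absurd h (by decide)) h9

theorem ak_of_ck (b : t.Base D) (ck : t.Checks D) (hf : ∀ r i, m.coef r i = t.f r i) {A K JI JL : List ℕ}
    (h : t.ckAK A K JL = true) (hJ : t.ckJL JI JL = true) :
    AK m A (fun r => r ∈ K) (fun r => r < D.nroots ∧ m.N ≤ r ∧ ¬ D.InRootSub {i | i ∈ JI} r) := by
  unfold Tab.ckAK at h
  simp only [Bool.and_eq_true] at h
  obtain ⟨h1, h2, h3, h4, h5⟩ := h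
  have hn := b.nroots
  have hN : m.N = t.N := by have := m.nroots_eq; have := b.n2; omega
  have hA : ∀ r, r ∈ A → m.N ≤ r ∧ r < D.nroots := by
    intro r hr
    have := List.all_eq_true.1 h1 r hr
    rw [Bool.and_eq_true] at this
    rw [hN, hn]
    exact ⟨Nat.le_of_ble_eq_true this.1, Nat.le_of_ble_eq_true this.2⟩
  have hK : ∀ r, r ∈ K → m.N ≤ r ∧ r < D.nroots := by
    intro r hr
    have := List.all_eq_true.1 h2 r hr
    rw [Bool.and_eq_true] at this
    rw [hN, hn]
    exact ⟨Nat.le_of_ble_eq_true this.1, Nat.le_of_ble_eq_true this.2⟩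
  refine ⟨hA, hK, ?_, ?_, ?_⟩
  · rintro r ⟨hr, hrN, hrJ⟩
    rw [inRoot_iff m b hf hJ hr] at hrJ
    have h6 := allNat_iff h3 r (by omega)
    rw [hN] at hrN
    rw [Nat.ble_eq_true_of_le hrN] at h6
    simp only [Bool.or_eq_true, memB_iff] at h6
    rcases h6 with h6 | h6 | h6
    · exact absurd h6 (by decide)
    · exact absurd h6 hrJ
    · exact h6
  · intro k hk s hs hsk
    have hkl : k ∈ A ++ K := List.mem_append.2 hk
    have hkn : k < t.n := by
      rcases hk with hk | hk
      · have := (hA k hk).2; omega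
      · have := (hK k hk).2; omega
    have h6 := List.all_eq_true.1 (List.all_eq_true.1 h4 k hkl) s hs
    rw [Bool.or_eq_true] at h6
    rw [Tab.commTerms_eq b ck hkn (by have := (hK s hs).2; omega)]
    exact evB_iff (fun r h => memB_iff.1 h) (h6.resolve_left fun h => hsk (Nat.eq_of_beq_eq_true h))
  · intro k hk s hs hks
    have h6 := List.all_eq_true.1 (List.all_eq_true.1 h5 k hk) s hs
    rw [Bool.or_eq_true] at h6
    rw [Tab.commTerms_eq b ck (by have := (hA k hk).2; omega) (by have := (hA s hs).2; omega)]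
    exact evB_iff (fun r h => memB_iff.1 h) (h6.resolve_left fun h => hks (Nat.eq_of_beq_eq_true h))

theorem psi_of_ck (b : t.Base D) (ck : t.Checks D) {S Ψ : List ℕ} (hS : ∀ s ∈ S, s < D.nroots) (h : t.ckPsi S Ψ = true) :
    ∀ r < D.nroots, r ∈ Ψ → ∀ s ∈ S, s = r ∨ (s ≠ r ∧ s ≠ D.neg r ∧ EvT (fun _ => False) (D.commTerms r s)) := by
  intro r hr hrΨ s hs
  have hn := b.nroots
  have h6 := List.all_eq_true.1 (List.all_eq_true.1 h r hrΨ) s hs
  by_cases hsr : s = r
  · exact Or.inl hsr
  · right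
    rw [Bool.or_eq_true, Bool.and_eq_true] at h6
    obtain ⟨h7, h8⟩ := h6.resolve_left fun h => hsr (Nat.eq_of_beq_eq_true h)
    refine ⟨hsr, ?_, ?_⟩
    · rw [b.ng_eq (by omega)]; exact Tab.beq_ne h7
    · rw [Tab.commTerms_eq b ck (by omega) (by have := hS s hs; omega)]
      exact evB_iff (fun _ h => absurd h (by decide)) h8

/-- stabilizer of two roots, a combination of which is dominant -/
theorem stab_two {x y : Fin D.nroots} {a c : ℤ} (hdom : ∀ i < D.rank, 0 ≤ a * D.cartan i x + c * D.cartan i y)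
    (hz : ∀ i < D.rank, a * D.cartan i x + c * D.cartan i y = 0 → D.cartan i x = 0 ∧ D.cartan i y = 0) :
    ∀ (k : ℕ) (w : Equiv.Perm (Fin D.nroots)), (m.inv w).card = k → w ∈ m.Wg → w x = x → w y = y →
      w ∈ m.WJ {i | a * D.cartan i x + c * D.cartan i y = 0} := by
  intro k
  induction k with
  | zero =>
    intro w hk hw _ _
    have : w = 1 := by
      apply m.eq_one_of_pos hw
      intro i
      by_contra hc
      have : m.p i ∈ m.inv w := m.mem_inv.2 ⟨m.p_pos i, not_le.1 hc⟩
      rw [Finset.card_eq_zero] at hk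
      rw [hk] at this
      exact absurd this (Finset.notMem_empty _)
    rw [this]; exact one_mem _
  | succ k ih =>
    intro w hk hw hx hy
    by_cases hall : ∀ i, m.N ≤ (w (m.p i) : Fin D.nroots)
    · rw [m.eq_one_of_pos hw hall]; exact one_mem _
    · push Not at hall
      obtain ⟨i, hi⟩ := hall
      have hW := m.isW hw
      have hpx := hW.pair (m.p i) x
      have hpy := hW.pair (m.p i) y
      rw [hx, m.coe_p, m.pair_simple i.2] at hpx
      rw [hy, m.coe_p, m.pair_simple i.2] at hpy
      set r := w (m.p i) with hr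
      have hle : a * pair D r x + c * pair D r y ≤ 0 := by
        have e : a * pair D r x + c * pair D r y =
            ∑ j ∈ Finset.range D.rank, cor D r j * (a * D.cartan j x + c * D.cartan j y) := by
          unfold pair
          rw [Finset.mul_sum, Finset.mul_sum, ← Finset.sum_add_distrib]
          apply Finset.sum_congr rfl
          intro j _
          ring
        rw [e]
        apply Finset.sum_nonpos
        intro j hj
        have hj' := Finset.mem_range.1 hj
        have h1 := m.cor_nonneg (m.ng r).2 ((m.ng_ge_iff r).2 hi) j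
        rw [m.coe_ng, m.cor_neg' r.2 j hj'] at h1
        exact mul_nonpos_of_nonpos_of_nonneg (by omega) (hdom j hj')
      have h0 : a * D.cartan i x + c * D.cartan i y = 0 := by
        have := hdom i i.2
        rw [hpx, hpy] at hle
        omega
      obtain ⟨hcx, hcy⟩ := hz i i.2 h0
      have hsx : m.sr i x = x := Fin.ext (refl_eq_self m i.2 x.2 hcx)
      have hsy : m.sr i y = y := Fin.ext (refl_eq_self m i.2 y.2 hcy)
      have hcard := m.card_inv_sr hw hi
      have h1 := ih (w * m.sr i) (by omega) (mul_mem hw (Subgroup.subset_closure ⟨i, rfl⟩))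
        (by rw [Equiv.Perm.mul_apply, hsx, hx]) (by rw [Equiv.Perm.mul_apply, hsy, hy])
      have h2 : m.sr i ∈ m.WJ {i | a * D.cartan i x + c * D.cartan i y = 0} := m.sr_mem_WJ h0
      have h3 := mul_mem h1 h2
      rwa [mul_assoc, m.sr_mul_self, mul_one] at h3

end Cfsg.Agent.H14.Chev
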