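import Mathlib
import Cfsg.Agent.H14_CfC

set_option autoImplicit false
set_option linter.unusedSectionVars false
set_option maxRecDepth 100000

/-!
Centralizers of involutions in Chevalley groups in characteristic two: type F4.
-/

namespace Cfsg.Agent.H14.Chev

open Cfsg Cfsg.Lie Cfsg.Lie.ChevalleyDatum Cfsg.Agent.H6 Cfsg.Agent.H6.Chev Cfsg.Agent.H6.Chev.Model
open scoped Matrix

variable {F : Type*} [Field F]

theorem hfF4 : ∀ r i, modelF4.coef r i = tabF4.f r i := fun _ _ => rfl

theorem maskF4 : tabF4.ckMask 261691415953527 = true := by decide +kernel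

/-! ### `x_47(1) x_44(1)` -/

theorem ckJL_F4w : tabF4.ckJL [1, 2] [17, 19, 20, 22, 25, 27, 28, 30] = true := by decide +kernel

theorem cd_F4w : CD modelF4 [47, 44] (fun r => r ∈ [44, 47]) {i | i ∈ [1, 2]} := by
  refine cd_of_ck modelF4 baseF4 checksF4 hfF4 (by decide) (by decide +kernel) ckJL_F4w ?_
  intro w hw h
  have h1 := h ⟨47, by decide⟩ (by decide)
  have h1' := h ⟨44, by decide⟩ (by decide)
  have h2 := mask_eq modelF4 baseF4 checksF4 maskF4 hw ⟨47, by decide⟩
  have h2' := mask_eq modelF4 baseF4 checksF4 maskF4 hw ⟨44, by decide⟩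
  have h3 : w ⟨47, by decide⟩ = ⟨47, by decide⟩ := by
    apply Fin.ext
    simp only [List.mem_cons, List.not_mem_nil, or_false] at h1
    rcases h1 with h1 | h1
    · rw [h1] at h2; exact absurd h2 (by decide +kernel)
    · exact h1
  have h3' : w ⟨44, by decide⟩ = ⟨44, by decide⟩ := by
    apply Fin.ext
    simp only [List.mem_cons, List.not_mem_nil, or_false] at h1'
    rcases h1' with h1 | h1
    · exact h1
    · rw [h1] at h2'; exact absurd h2' (by decide +kernel)
  have h4 : w ∈ modelF4.WJ Set.univ := by rw [modelF4.WJ_univ fun i _ => Set.mem_univ i]; exact hw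
  have hd : ∀ j < chevF4.rank, 0 ≤ 1 * chevF4.cartan j ((⟨47, by decide⟩ : Fin chevF4.nroots) : ℕ) := by decide +kernel
  have hd' : ∀ j < chevF4.rank, 0 ≤ 1 * chevF4.cartan j ((⟨44, by decide⟩ : Fin chevF4.nroots) : ℕ) := by decide +kernel
  have h5 := modelF4.stab (Or.inl rfl) (J := Set.univ) (x₀ := ⟨47, by decide⟩) (fun j hj _ => hd j hj) _ w rfl h4 h3
  have h6 := modelF4.stab (Or.inl rfl) (x₀ := ⟨44, by decide⟩) (fun j hj _ => hd' j hj) _ w rfl h5 h3'
  refine modelF4.WJ_mono ?_ h6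
  rintro i hi ⟨⟨_, h7⟩, h8⟩
  have : ∀ i < chevF4.rank, chevF4.cartan i ((⟨47, by decide⟩ : Fin chevF4.nroots) : ℕ) = 0 →
      chevF4.cartan i ((⟨44, by decide⟩ : Fin chevF4.nroots) : ℕ) = 0 → i ∈ [1, 2] := by decide +kernel
  exact this i hi h7 h8

theorem hH_F4w (b : ℕ → Fˣ) (h : ∀ s ∈ [47, 44], modelF4.chi (hC chevF4 b) s = 1) :
    modelF4.hHom b ∈ modelF4.gen F (fun r => chevF4.InRootSub {i | i ∈ [1, 2]} r) := by
  have h1 := h 47 (by decide)
  have h1' := h 44 (by decide)
  have hr : Finset.range chevF4.rank = {0, 1, 2, 3} := by decide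
  rw [modelF4.chi_hC b (by decide), hr] at h1 h1'
  simp only [Finset.prod_insert (show (0 : ℕ) ∉ ({1, 2, 3} : Finset ℕ) by decide),
    Finset.prod_insert (show (1 : ℕ) ∉ ({2, 3} : Finset ℕ) by decide),
    Finset.prod_insert (show (2 : ℕ) ∉ ({3} : Finset ℕ) by decide), Finset.prod_singleton,
    show chevF4.cartan 0 47 = 0 by decide +kernel, show chevF4.cartan 1 47 = 0 by decide +kernel,
    show chevF4.cartan 2 47 = 0 by decide +kernel, show chevF4.cartan 3 47 = 1 by decide +kernel,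
    show chevF4.cartan 0 44 = 1 by decide +kernel, show chevF4.cartan 1 44 = 0 by decide +kernel,
    show chevF4.cartan 2 44 = 0 by decide +kernel, show chevF4.cartan 3 44 = 0 by decide +kernel,
    zpow_zero, zpow_one, one_mul, mul_one] at h1 h1'
  apply hHom_mem_gen modelF4
  intro i hi hbi
  have hi1 : i ∈ ({i | i ∈ [1, 2]} : Set ℕ) := by
    have : i < 4 := hi
    interval_cases i
    · exact absurd h1' hbi
    · simp
    · simp
    · exact absurd h1 hbi
  exact ⟨modelF4.inRootSub_simple hi1 hi, modelF4.inRootSub_neg (modelF4.simple_lt i hi) (modelF4.inRootSub_simple hi1 hi)⟩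

/-- the positive roots -/
theorem psi_F4w : ∀ r < chevF4.nroots, r ∈ List.range' 24 24 → ∀ s ∈ [47, 44],
    s = r ∨ (s ≠ r ∧ s ≠ chevF4.neg r ∧ EvT (fun _ => False) (chevF4.commTerms r s)) :=
  psi_of_ck baseF4 checksF4 (by decide) (by decide +kernel)

theorem F4_posgen : chevF4.posUnipotent F = modelF4.gen F (fun r => r ∈ List.range' 24 24) := by
  rw [modelF4.posUnipotent_eq]
  apply modelF4.gen_congr
  intro r hr
  rw [List.mem_range'_1]
  change 24 ≤ r ↔ _
  have : r < 48 := hr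
  omega

/-- `X_r` for the roots of the subsystem lie in the group generated by `U` and the `X_{-p_i}` -/
theorem F4_sub_le : modelF4.gen F (fun r => chevF4.InRootSub {i | i ∈ [1, 2]} r) ≤
    modelF4.gen F (fun r => r ∈ List.range' 24 24 ∨ r ∈ [20, 22]) := by
  set M := modelF4.gen F (fun r => r ∈ List.range' 24 24 ∨ r ∈ [20, 22]) with hM
  have hn : ∀ j ∈ ({i | i ∈ [1, 2]} : Set ℕ), j < chevF4.rank → modelF4.n F j ∈ M := by
    intro j hj _
    have hj' : j = 1 ∨ j = 2 := by simpa using hj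
    rcases hj' with rfl | rfl
    · refine nn_mem_gen modelF4 ?_ ?_ _
      · exact Or.inl (by decide +kernel)
      · exact Or.inr (by decide +kernel)
    · refine nn_mem_gen modelF4 ?_ ?_ _
      · exact Or.inl (by decide +kernel)
      · exact Or.inr (by decide +kernel)
  apply modelF4.gen_le
  intro r _ hR
  refine modelF4.sub_induction (P := fun r => ∀ t : F, modelF4.X r t ∈ M) ?_ ?_ r hR
  · intro j hj hjr t
    refine modelF4.X_mem_gen (R := fun r => r ∈ List.range' 24 24 ∨ r ∈ [20, 22]) (Or.inl ?_) t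
    have hj' : j = 1 ∨ j = 2 := by simpa using hj
    rcases hj' with rfl | rfl <;> decide +kernel
  · intro j hj hjr s hs _ ih t
    have h1 := modelF4.n_X (F := F) hjr hs (((modelF4.eta j s : ℤ) : F) * t)
    rw [← mul_assoc, modelF4.etaF_mul_self hjr hs, one_mul] at h1
    have h2 : modelF4.X (chevF4.reflectRoot j s) t = modelF4.n F j * modelF4.X s (((modelF4.eta j s : ℤ) : F) * t) * (modelF4.n F j)⁻¹ := by
      rw [h1]; group
    rw [h2]
    exact mul_mem (mul_mem (hn j hj hjr) (ih _)) (inv_mem (hn j hj hjr))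

theorem s2179w [Fintype F] [CharP F 2] (w : GL chevF4.Idx F) (hw : (w : Matrix chevF4.Idx chevF4.Idx F) = chevF4.x F 47 1 * chevF4.x F 44 1) :
    chevF4.group F ⊓ Subgroup.centralizer {w} = chevF4.posUnipotent F ⊔ chevF4.rootSubgroup F 20 ⊔ chevF4.rootSubgroup F 22 := by
  have hwP : w = PS modelF4 [47, 44] (fun _ => (1 : F)) := by
    apply Units.ext
    rw [hw]
    simp [PS, Model.coe_X]
  rw [hwP, cd_F4w.eq (Ψ := fun r => r ∈ List.range' 24 24) hH_F4w (fun z hz _ => by
    rw [← F4_posgen]; exact modelF4.radical_le_U _ hz) psi_F4w]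
  rw [F4_posgen]
  simp only [modelF4.rootSubgroup_eq, gen_sup]
  apply le_antisymm
  · rw [← gen_sup]
    apply sup_le
    · exact modelF4.gen_mono fun r _ h => Or.inl (Or.inl h)
    · refine F4_sub_le.trans (modelF4.gen_mono fun r _ h => ?_)
      simp only [List.mem_cons, List.not_mem_nil, or_false] at h
      tauto
  · apply modelF4.gen_mono
    intro r hr h
    rw [inRoot_iff modelF4 baseF4 hfF4 ckJL_F4w hr]
    rcases h with (h | h) | h
    · exact Or.inl h
    · right; rw [h]; decide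
    · right; rw [h]; decide

/-! ### `x_39(1) x_45(1)` -/

theorem ckJL_F4v : tabF4.ckJL [0, 3] [14, 23, 24, 33] = true := by decide +kernel

theorem cd_F4v : CD modelF4 [39, 45] (fun r => r ∈ [39, 40, 44, 45, 46, 47]) {i | i ∈ [0, 3]} := by
  refine cd_of_ck modelF4 baseF4 checksF4 hfF4 (by decide) (by decide +kernel) ckJL_F4v ?_
  intro w hw h
  have h1 := h ⟨39, by decide⟩ (by decide)
  have h1' := h ⟨45, by decide⟩ (by decide)
  have h2 := mask_eq modelF4 baseF4 checksF4 maskF4 hw ⟨39, by decide⟩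
  have h2' := mask_eq modelF4 baseF4 checksF4 maskF4 hw ⟨45, by decide⟩
  have h3 := (modelF4.isW hw).pair ⟨39, by decide⟩ ⟨45, by decide⟩
  have h0 : Model.pair chevF4 ((⟨39, by decide⟩ : Fin chevF4.nroots) : ℕ) ((⟨45, by decide⟩ : Fin chevF4.nroots) : ℕ) = 0 := by decide +kernel
  rw [h0] at h3
  have key : ∀ a ∈ [39, 40, 44, 45, 46, 47], ∀ b ∈ [39, 40, 44, 45, 46, 47],
      (261691415953527 : ℕ).testBit a = (261691415953527 : ℕ).testBit 39 → (261691415953527 : ℕ).testBit b = (261691415953527 : ℕ).testBit 45 →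
      Model.pair chevF4 a b = 0 → a = 39 ∧ b = 45 := by decide +kernel
  obtain ⟨k1, k2⟩ := key _ h1 _ h1' h2 h2' h3
  have k1' : w ⟨39, by decide⟩ = ⟨39, by decide⟩ := Fin.ext k1
  have k2' : w ⟨45, by decide⟩ = ⟨45, by decide⟩ := Fin.ext k2
  have h5 := stab_two modelF4 (x := ⟨39, by decide⟩) (y := ⟨45, by decide⟩) (a := 3) (c := 2) (by decide +kernel) (by decide +kernel) _ w rfl hw k1' k2'
  refine modelF4.WJ_mono ?_ h5
  intro i hi h6
  have : ∀ i < chevF4.rank, 3 * chevF4.cartan i ((⟨39, by decide⟩ : Fin chevF4.nroots) : ℕ) +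
      2 * chevF4.cartan i ((⟨45, by decide⟩ : Fin chevF4.nroots) : ℕ) = 0 → i ∈ [0, 3] := by decide +kernel
  exact this i hi h6

theorem ak_F4v : AK modelF4 [25, 26, 27, 34] (fun r => r ∈ [28, 29, 30, 31, 32, 35, 36, 37, 38, 39, 40, 41, 42, 43, 44, 45, 46, 47])
    (fun r => r < chevF4.nroots ∧ modelF4.N ≤ r ∧ ¬ chevF4.InRootSub {i | i ∈ [0, 3]} r) :=
  ak_of_ck modelF4 baseF4 checksF4 hfF4 (by decide +kernel) ckJL_F4v

theorem hH_F4v (b : ℕ → Fˣ) (h : ∀ s ∈ [39, 45], modelF4.chi (hC chevF4 b) s = 1) :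
    modelF4.hHom b ∈ modelF4.gen F (fun r => chevF4.InRootSub {i | i ∈ [0, 3]} r) := by
  have h1 := h 39 (by decide)
  have h1' := h 45 (by decide)
  have hr : Finset.range chevF4.rank = {0, 1, 2, 3} := by decide
  rw [modelF4.chi_hC b (by decide), hr] at h1 h1'
  simp only [Finset.prod_insert (show (0 : ℕ) ∉ ({1, 2, 3} : Finset ℕ) by decide),
    Finset.prod_insert (show (1 : ℕ) ∉ ({2, 3} : Finset ℕ) by decide),
    Finset.prod_insert (show (2 : ℕ) ∉ ({3} : Finset ℕ) by decide), Finset.prod_singleton,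
    show chevF4.cartan 0 39 = 0 by decide +kernel, show chevF4.cartan 1 39 = -1 by decide +kernel,
    show chevF4.cartan 2 39 = 1 by decide +kernel, show chevF4.cartan 3 39 = 0 by decide +kernel,
    show chevF4.cartan 0 45 = 0 by decide +kernel, show chevF4.cartan 1 45 = 2 by decide +kernel,
    show chevF4.cartan 2 45 = -1 by decide +kernel, show chevF4.cartan 3 45 = 0 by decide +kernel,
    zpow_zero, zpow_one, one_mul, mul_one] at h1 h1'
  have e1 : b 2 = b 1 := by
    rw [zpow_neg_one, inv_mul_eq_one] at h1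
    exact h1.symm
  have e2 : b 1 = 1 := by
    rw [e1, zpow_neg_one, show (2 : ℤ) = ((2 : ℕ) : ℤ) from rfl, zpow_natCast, pow_two, mul_assoc, mul_inv_cancel, mul_one] at h1'
    exact h1'
  apply hHom_mem_gen modelF4
  intro i hi hbi
  have hi1 : i ∈ ({i | i ∈ [0, 3]} : Set ℕ) := by
    have : i < 4 := hi
    interval_cases i
    · simp
    · exact absurd e2 hbi
    · exact absurd (e1.trans e2) hbi
    · simp
  exact ⟨modelF4.inRootSub_simple hi1 hi, modelF4.inRootSub_neg (modelF4.simple_lt i hi) (modelF4.inRootSub_simple hi1 hi)⟩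

theorem F4_conj1 [CharP F 2] {r s u : ℕ} (hr : r < 48) (hs : s < 48) (h1 : s ≠ r) (h2 : s ≠ tabF4.ng r)
    (h : tabF4.cm r s = [(u, 1, 1, 1)]) (a b : F) :
    (modelF4.X r a)⁻¹ * modelF4.X s b * modelF4.X r a = modelF4.X s b * modelF4.X u (a * b) := by
  rw [X_conj_word modelF4 hr hs h1 (by rw [baseF4.ng_eq hr]; exact h2)]
  rw [ChevalleyDatum.commWord, Tab.commTerms_eq baseF4 checksF4 hr hs, h]
  simp only [List.map_cons, List.map_nil, Int.cast_one, one_mul, pow_one, CharTwo.neg_eq]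
  rw [Model.word_cons, Model.word_nil, mul_one]

theorem F4_commE [CharP F 2] {r s : ℕ} (hr : r < 48) (hs : s < 48) (h1 : s ≠ r) (h2 : s ≠ tabF4.ng r)
    (h : Tab.evB (fun _ => false) (tabF4.cm r s) = true) (a b : F) : (modelF4.X r a)⁻¹ * modelF4.X s b * modelF4.X r a = modelF4.X s b := by
  have h3 : Commute (modelF4.X r a) (modelF4.X s b) := comm_of_EvT modelF4 hr hs h1 (by rw [baseF4.ng_eq hr]; exact h2)
    (by rw [Tab.commTerms_eq baseF4 checksF4 hr hs]; exact evB_iff (fun _ h => absurd h (by decide)) h) a b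
  rw [mul_assoc, ← h3.eq]; group

theorem hZ_F4v [CharP F 2] {z : GL chevF4.Idx F} (hz : z ∈ chevF4.unipotentRadical F {i | i ∈ [0, 3]})
    (hc : z * PS modelF4 [39, 45] (fun _ => (1 : F)) = PS modelF4 [39, 45] (fun _ => (1 : F)) * z) :
    z ∈ modelF4.gen F (fun r => r ∈ [28, 29, 30, 31, 32, 35, 36, 37, 38, 39, 40, 41, 42, 43, 44, 45, 46, 47]) := by
  rw [modelF4.unipotentRadical_eq] at hz
  obtain ⟨c, q, hq, rfl⟩ := ak_F4v.form (by decide) (modelF4.gen_mono (fun r hr h => ⟨hr, h.1, h.2⟩) hz)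
  set P := PS modelF4 [39, 45] (fun _ => (1 : F)) with hP
  have hK := psi_of_ck (S := [39, 45]) (Ψ := [28, 29, 30, 31, 32, 35, 36, 37, 38, 39, 40, 41, 42, 43, 44, 45, 46, 47]) baseF4 checksF4 (by decide) (by decide +kernel)
  have hqc : Commute q P := by
    refine modelF4.gen_induction (p := fun q => Commute q P) (Commute.one_left _) ?_ hq
    intro r hr hR a g _ ih
    refine Commute.mul_left ?_ ih
    rw [hP]
    unfold PS
    apply Commute.list_prod_right
    intro x hx
    obtain ⟨s, hs, rfl⟩ := List.mem_map.1 hx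
    have hs48 : s < chevF4.nroots := by
      have : ∀ s ∈ [39, 45], s < chevF4.nroots := by decide
      exact this s hs
    rcases hK r hr hR s hs with h1 | ⟨h1, h2, h3⟩
    · rw [h1]; exact modelF4.X_comm _ _ _
    · exact comm_of_EvT modelF4 hr hs48 h1 h2 h3 _ _
  set Z := PS modelF4 [25, 26, 27, 34] c with hZ
  have h1 : Z * P = P * Z := by
    have : Z * P * q = P * Z * q := by
      calc Z * P * q = Z * (q * P) := by rw [hqc.eq, mul_assoc]
        _ = _ := by rw [← mul_assoc, hc, mul_assoc]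
    exact mul_right_cancel this
  have hP' : P = modelF4.X 39 1 * modelF4.X 45 1 := by simp [hP, PS]
  have hZ' : Z = modelF4.X 25 (c 25) * modelF4.X 26 (c 26) * modelF4.X 27 (c 27) * modelF4.X 34 (c 34) := by simp [hZ, PS, mul_assoc]
  -- conjugation steps
  have a39 := F4_commE (F := F) (r := 25) (s := 39) (by decide) (by decide) (by decide) (by decide) (by decide +kernel) (c 25) 1
  have a45 := F4_conj1 (F := F) (r := 25) (s := 45) (u := 46) (by decide) (by decide) (by decide) (by decide) (by decide +kernel) (c 25) 1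
  have b39 := F4_commE (F := F) (r := 26) (s := 39) (by decide) (by decide) (by decide) (by decide) (by decide +kernel) (c 26) 1
  have b45 := F4_conj1 (F := F) (r := 26) (s := 45) (u := 47) (by decide) (by decide) (by decide) (by decide) (by decide +kernel) (c 26) 1
  have b46 := F4_commE (F := F) (r := 26) (s := 46) (by decide) (by decide) (by decide) (by decide) (by decide +kernel) (c 26) (c 25 * 1)
  have c39 := F4_conj1 (F := F) (r := 27) (s := 39) (u := 40) (by decide) (by decide) (by decide) (by decide) (by decide +kernel) (c 27) 1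
  have c45 := F4_commE (F := F) (r := 27) (s := 45) (by decide) (by decide) (by decide) (by decide) (by decide +kernel) (c 27) 1
  have c47 := F4_commE (F := F) (r := 27) (s := 47) (by decide) (by decide) (by decide) (by decide) (by decide +kernel) (c 27) (c 26 * 1)
  have c46 := F4_commE (F := F) (r := 27) (s := 46) (by decide) (by decide) (by decide) (by decide) (by decide +kernel) (c 27) (c 25 * 1)
  have d39 := F4_conj1 (F := F) (r := 34) (s := 39) (u := 44) (by decide) (by decide) (by decide) (by decide) (by decide +kernel) (c 34) 1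
  have d40 := F4_commE (F := F) (r := 34) (s := 40) (by decide) (by decide) (by decide) (by decide) (by decide +kernel) (c 34) (c 27 * 1)
  have d45 := F4_commE (F := F) (r := 34) (s := 45) (by decide) (by decide) (by decide) (by decide) (by decide +kernel) (c 34) 1
  have d47 := F4_commE (F := F) (r := 34) (s := 47) (by decide) (by decide) (by decide) (by decide) (by decide +kernel) (c 34) (c 26 * 1)
  have d46 := F4_commE (F := F) (r := 34) (s := 46) (by decide) (by decide) (by decide) (by decide) (by decide +kernel) (c 34) (c 25 * 1)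
  set A := modelF4.X 25 (c 25)
  set B := modelF4.X 26 (c 26)
  set C := modelF4.X 27 (c 27)
  set E := modelF4.X 34 (c 34)
  have h4 : Z⁻¹ * P * Z = modelF4.X 39 1 * modelF4.X 44 (c 34 * 1) * modelF4.X 40 (c 27 * 1) * modelF4.X 45 1 *
      modelF4.X 47 (c 26 * 1) * modelF4.X 46 (c 25 * 1) := by
    rw [hZ', hP']
    have s1 : A⁻¹ * (modelF4.X 39 1 * modelF4.X 45 1) * A = modelF4.X 39 1 * (modelF4.X 45 1 * modelF4.X 46 (c 25 * 1)) := by
      rw [← a45]
      nth_rewrite 2 [← a39]
      group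
    have s2 : B⁻¹ * (modelF4.X 39 1 * (modelF4.X 45 1 * modelF4.X 46 (c 25 * 1))) * B =
        modelF4.X 39 1 * (modelF4.X 45 1 * modelF4.X 47 (c 26 * 1)) * modelF4.X 46 (c 25 * 1) := by
      rw [← b45]
      nth_rewrite 2 [← b39]
      nth_rewrite 2 [← b46]
      group
    have s3 : C⁻¹ * (modelF4.X 39 1 * (modelF4.X 45 1 * modelF4.X 47 (c 26 * 1)) * modelF4.X 46 (c 25 * 1)) * C =
        (modelF4.X 39 1 * modelF4.X 40 (c 27 * 1)) * (modelF4.X 45 1 * modelF4.X 47 (c 26 * 1)) * modelF4.X 46 (c 25 * 1) := by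
      rw [← c39]
      nth_rewrite 2 [← c45]
      nth_rewrite 2 [← c47]
      nth_rewrite 2 [← c46]
      group
    have s4 : E⁻¹ * ((modelF4.X 39 1 * modelF4.X 40 (c 27 * 1)) * (modelF4.X 45 1 * modelF4.X 47 (c 26 * 1)) * modelF4.X 46 (c 25 * 1)) * E =
        (modelF4.X 39 1 * modelF4.X 44 (c 34 * 1)) * modelF4.X 40 (c 27 * 1) * (modelF4.X 45 1 * modelF4.X 47 (c 26 * 1)) * modelF4.X 46 (c 25 * 1) := by
      rw [← d39]
      nth_rewrite 2 [← d40]
      nth_rewrite 2 [← d45]
      nth_rewrite 2 [← d47]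
      nth_rewrite 2 [← d46]
      group
    calc (A * B * C * E)⁻¹ * (modelF4.X 39 1 * modelF4.X 45 1) * (A * B * C * E)
        = E⁻¹ * (C⁻¹ * (B⁻¹ * (A⁻¹ * (modelF4.X 39 1 * modelF4.X 45 1) * A) * B) * C) * E := by group
      _ = _ := by rw [s1, s2, s3, s4]; group
  have h5 : Z⁻¹ * P * Z = P := by rw [mul_assoc, ← h1]; group
  rw [h5, hP'] at h4
  have h6 := cd_F4v.ab.coord_prod (F := F) (fun r => if r = 39 then 1 else if r = 44 then c 34 else if r = 40 then c 27 else
    if r = 45 then 1 else if r = 47 then c 26 else c 25) [39, 44, 40, 45, 47, 46] (by decide) (by decide)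
  have h7 := cd_F4v.ab.coord_prod (F := F) (fun _ => 1) [39, 45] (by decide) (by decide)
  have h8 : modelF4.nf (LF modelF4) (fun r => if r ∈ [39, 45] then (1 : F) else 0) =
      modelF4.nf (LF modelF4) (fun r => if r ∈ [39, 44, 40, 45, 47, 46] then (if r = 39 then 1 else if r = 44 then c 34 else if r = 40 then c 27 else
    if r = 45 then 1 else if r = 47 then c 26 else c 25) else 0) := by
    rw [← h6, ← h7]
    simp only [List.map_cons, List.map_nil, List.prod_cons, List.prod_nil, mul_one]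
    rw [h4]
    simp [mul_assoc]
  have k1 := coord_unique modelF4 h8 (r := 44) (by decide) (by decide)
  have k2 := coord_unique modelF4 h8 (r := 40) (by decide) (by decide)
  have k3 := coord_unique modelF4 h8 (r := 47) (by decide) (by decide)
  have k4 := coord_unique modelF4 h8 (r := 46) (by decide) (by decide)
  simp at k1 k2 k3 k4
  have hZ1 : Z = 1 := by
    rw [hZ']
    change modelF4.X 25 (c 25) * modelF4.X 26 (c 26) * modelF4.X 27 (c 27) * modelF4.X 34 (c 34) = 1
    rw [← k1, ← k2, ← k3, ← k4, modelF4.X_zero, modelF4.X_zero, modelF4.X_zero, modelF4.X_zero, one_mul, one_mul, one_mul]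
  rw [hZ1, one_mul]
  exact hq

theorem s2179v [Fintype F] [CharP F 2] (v : GL chevF4.Idx F) (hv : (v : Matrix chevF4.Idx chevF4.Idx F) = chevF4.x F 39 1 * chevF4.x F 45 1) :
    chevF4.group F ⊓ Subgroup.centralizer {v} = chevF4.rootSubgroup F 33 ⊔ chevF4.rootSubgroup F 14 ⊔ chevF4.rootSubgroup F 24 ⊔ chevF4.rootSubgroup F 23 ⊔
      Subgroup.closure {g : GL chevF4.Idx F | ∃ (r : ℕ) (c : F), chevF4.IsPosRoot r ∧ r ∉ [27, 25, 34, 26] ∧ (g : Matrix chevF4.Idx chevF4.Idx F) = chevF4.x F r c} := by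
  have hvP : v = PS modelF4 [39, 45] (fun _ => (1 : F)) := by
    apply Units.ext
    rw [hv]
    simp [PS, Model.coe_X]
  have hcl : Subgroup.closure {g : GL chevF4.Idx F | ∃ (r : ℕ) (c : F), chevF4.IsPosRoot r ∧ r ∉ [27, 25, 34, 26] ∧ (g : Matrix chevF4.Idx chevF4.Idx F) = chevF4.x F r c} =
      modelF4.gen F (fun r => chevF4.IsPosRoot r ∧ r ∉ [27, 25, 34, 26]) := by
    rw [← modelF4.closure_eq_gen]
    congr 1
    ext g
    constructor
    · rintro ⟨r, c, h1, h2, h3⟩; exact ⟨r, c, ⟨h1, h2⟩, h3⟩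
    · rintro ⟨r, c, ⟨h1, h2⟩, h3⟩; exact ⟨r, c, h1, h2, h3⟩
  rw [hcl, hvP, cd_F4v.eq (Ψ := fun r => r ∈ [28, 29, 30, 31, 32, 35, 36, 37, 38, 39, 40, 41, 42, 43, 44, 45, 46, 47]) hH_F4v (fun z hz hc => hZ_F4v hz hc)
    (psi_of_ck baseF4 checksF4 (by decide) (by decide +kernel))]
  simp only [modelF4.rootSubgroup_eq, gen_sup]
  apply modelF4.gen_congr
  intro r hr
  rw [inRoot_iff modelF4 baseF4 hfF4 ckJL_F4v hr, modelF4.pos_iff r hr]
  have hr' : r < 48 := hr
  change _ ↔ _ ∨ (24 ≤ r ∧ _)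
  revert r
  have : ∀ r < 48, (r ∈ [28, 29, 30, 31, 32, 35, 36, 37, 38, 39, 40, 41, 42, 43, 44, 45, 46, 47] ∨ r ∈ [14, 23, 24, 33]) ↔
      (((r = 33 ∨ r = 14) ∨ r = 24) ∨ r = 23) ∨ (24 ≤ r ∧ r ∉ [27, 25, 34, 26]) := by decide +kernel
  exact fun r _ hr => this r hr

end Cfsg.Agent.H14.Chev
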