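import Mathlib
import Cfsg.Agent.H14_CfC

set_option autoImplicit false
set_option linter.unusedSectionVars false
set_option maxRecDepth 100000

/-!
Centralizers of involutions in Chevalley groups in characteristic two: type G2.
-/

namespace Cfsg.Agent.H14.Chev

open Cfsg Cfsg.Lie Cfsg.Lie.ChevalleyDatum Cfsg.Agent.H6 Cfsg.Agent.H6.Chev Cfsg.Agent.H6.Chev.Model
open scoped Matrix

variable {F : Type*} [Field F]

theorem hfG2 : ∀ r i, modelG2.coef r i = tabG2.f r i := fun _ _ => rfl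

theorem ckJL_G2 : tabG2.ckJL [1] [5, 6] = true := by decide +kernel

theorem dd_G2 : DomData chevG2 11 1 [4] := by decide +kernel

theorem cd_G2 : CD modelG2 [9] (fun r => r ∈ [9, 10, 11]) {i | i ∈ [1]} := by
  refine cd_of_ck modelG2 baseG2 checksG2 hfG2 (by decide) (by decide +kernel) ckJL_G2 ?_
  intro w hw h
  have hm : tabG2.ckMask 3171 = true := by decide +kernel
  have h1 := h ⟨9, by decide⟩ (by decide)
  have h2 := mask_eq modelG2 baseG2 checksG2 hm hw ⟨9, by decide⟩
  have h3 : w ⟨9, by decide⟩ = ⟨9, by decide⟩ := by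
    apply Fin.ext
    simp only [List.mem_cons, List.not_mem_nil, or_false] at h1
    rcases h1 with h1 | h1 | h1
    · exact h1
    · rw [h1] at h2; exact absurd h2 (by decide +kernel)
    · rw [h1] at h2; exact absurd h2 (by decide +kernel)
  have h4 : w ∈ modelG2.WJ Set.univ := by rw [modelG2.WJ_univ fun i _ => Set.mem_univ i]; exact hw
  have hd : ∀ j < chevG2.rank, 0 ≤ 1 * chevG2.cartan j ((⟨9, by decide⟩ : Fin chevG2.nroots) : ℕ) := by decide +kernel
  have h5 := modelG2.stab (Or.inl rfl) (J := Set.univ) (x₀ := ⟨9, by decide⟩) (fun j hj _ => hd j hj) _ w rfl h4 h3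
  refine modelG2.WJ_mono ?_ h5
  rintro i hi ⟨_, h6⟩
  have : ∀ i < chevG2.rank, chevG2.cartan i ((⟨9, by decide⟩ : Fin chevG2.nroots) : ℕ) = 0 → i ∈ [1] := by decide +kernel
  exact this i hi h6

theorem ak_G2 : AK modelG2 [7, 8] (fun r => r ∈ [9, 10, 11]) (fun r => r < chevG2.nroots ∧ modelG2.N ≤ r ∧ ¬ chevG2.InRootSub {i | i ∈ [1]} r) :=
  ak_of_ck modelG2 baseG2 checksG2 hfG2 (by decide +kernel) ckJL_G2

theorem G2_conj [CharP F 2] {r s u : ℕ} {c : ℤ} (hr : r < 12) (hs : s < 12) (h1 : s ≠ r) (h2 : s ≠ tabG2.ng r)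
    (h : tabG2.cm r s = [(u, c, 1, 1)]) (hc : (c : F) = 1) (a b : F) :
    (modelG2.X r a)⁻¹ * modelG2.X s b * modelG2.X r a = modelG2.X s b * modelG2.X u (a * b) := by
  rw [X_conj_word modelG2 hr hs h1 (by rw [baseG2.ng_eq hr]; exact h2)]
  rw [ChevalleyDatum.commWord, Tab.commTerms_eq baseG2 checksG2 hr hs, h]
  simp only [List.map_cons, List.map_nil, hc, one_mul, pow_one, CharTwo.neg_eq]
  rw [Model.word_cons, Model.word_nil, mul_one]

theorem hH_G2 (b : ℕ → Fˣ) (h : ∀ s ∈ [9], modelG2.chi (hC chevG2 b) s = 1) :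
    modelG2.hHom b ∈ modelG2.gen F (fun r => chevG2.InRootSub {i | i ∈ [1]} r) := by
  have h1 := h 9 (by decide)
  rw [modelG2.chi_hC b (by decide), Finset.prod_eq_single_of_mem 0 (by decide)] at h1
  · have h2 : chevG2.cartan 0 9 = 1 := by decide +kernel
    rw [h2, zpow_one] at h1
    apply hHom_mem_gen modelG2
    intro i hi hbi
    have hi1 : i = 1 := by
      have : i < 2 := hi
      interval_cases i
      · exact absurd h1 hbi
      · rfl
    subst hi1
    exact ⟨modelG2.inRootSub_simple (J := {i | i ∈ [1]}) (by simp) hi,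
      modelG2.inRootSub_neg (modelG2.simple_lt 1 hi) (modelG2.inRootSub_simple (J := {i | i ∈ [1]}) (by simp) hi)⟩
  · intro i hi hne
    have hi' : i < 2 := Finset.mem_range.1 hi
    have : i = 1 := by omega
    subst this
    have h2 : chevG2.cartan 1 9 = 0 := by decide +kernel
    rw [h2, zpow_zero]

theorem hZ_G2 [CharP F 2] {z : GL chevG2.Idx F} (hz : z ∈ chevG2.unipotentRadical F {i | i ∈ [1]})
    (hc : z * PS modelG2 [9] (fun _ => (1 : F)) = PS modelG2 [9] (fun _ => (1 : F)) * z) :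
    z ∈ modelG2.gen F (fun r => r ∈ [9, 10, 11]) := by
  rw [modelG2.unipotentRadical_eq] at hz
  obtain ⟨c, q, hq, rfl⟩ := ak_G2.form (by decide) (modelG2.gen_mono (fun r hr h => ⟨hr, h.1, h.2⟩) hz)
  have hqc : Commute q (PS modelG2 [9] (fun _ => (1 : F))) :=
    cd_G2.ab.gen_comm hq (cd_G2.PS_mem _ _ fun s hs => hs)
  set P := PS modelG2 [9] (fun _ => (1 : F)) with hP
  set Z := PS modelG2 [7, 8] c with hZ
  have h1 : Z * P = P * Z := by
    have : Z * P * q = P * Z * q := by
      calc Z * P * q = Z * (q * P) := by rw [hqc.eq, mul_assoc]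
        _ = _ := by rw [← mul_assoc, hc, mul_assoc]
    exact mul_right_cancel this
  have hP' : P = modelG2.X 9 1 := by simp [hP, PS]
  have hZ' : Z = modelG2.X 7 (c 7) * modelG2.X 8 (c 8) := by simp [hZ, PS]
  have h3 : (3 : F) = 1 := by
    have : (3 : F) = 2 + 1 := by norm_num
    rw [this, CharTwo.two_eq_zero, zero_add]
  have e1 := G2_conj (F := F) (r := 7) (s := 9) (u := 10) (c := 3) (by decide) (by decide) (by decide) (by decide) (by decide +kernel)
    (by exact_mod_cast h3) (c 7) 1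
  have e2 := G2_conj (F := F) (r := 8) (s := 9) (u := 11) (c := 3) (by decide) (by decide) (by decide) (by decide) (by decide +kernel)
    (by exact_mod_cast h3) (c 8) 1
  have e3 : Commute (modelG2.X 8 (c 8)) (modelG2.X 10 (c 7 * 1)) :=
    comm_of_nil modelG2 (by decide) (by decide) (by decide) (by rw [baseG2.ng_eq (by decide)]; decide)
      (by rw [Tab.commTerms_eq baseG2 checksG2 (by decide) (by decide)]; decide +kernel) _ _
  have h4 : Z⁻¹ * P * Z = modelG2.X 9 1 * modelG2.X 11 (c 8 * 1) * modelG2.X 10 (c 7 * 1) := by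
    rw [hZ', hP']
    calc (modelG2.X 7 (c 7) * modelG2.X 8 (c 8))⁻¹ * modelG2.X 9 1 * (modelG2.X 7 (c 7) * modelG2.X 8 (c 8))
        = (modelG2.X 8 (c 8))⁻¹ * ((modelG2.X 7 (c 7))⁻¹ * modelG2.X 9 1 * modelG2.X 7 (c 7)) * modelG2.X 8 (c 8) := by group
      _ = (modelG2.X 8 (c 8))⁻¹ * modelG2.X 9 1 * (modelG2.X 10 (c 7 * 1) * modelG2.X 8 (c 8)) := by rw [e1]; group
      _ = ((modelG2.X 8 (c 8))⁻¹ * modelG2.X 9 1 * modelG2.X 8 (c 8)) * modelG2.X 10 (c 7 * 1) := by rw [← e3.eq]; group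
      _ = _ := by rw [e2]
  have h5 : Z⁻¹ * P * Z = P := by rw [mul_assoc, ← h1]; group
  rw [h5, hP'] at h4
  have h6 := cd_G2.ab.coord_prod (F := F) (fun r => if r = 9 then 1 else if r = 11 then c 8 else c 7) [9, 11, 10] (by decide) (by decide)
  have h7 := cd_G2.ab.coord_prod (F := F) (fun _ => 1) [9] (by decide) (by decide)
  have h8 : modelG2.nf (LF modelG2) (fun r => if r ∈ [9] then (1 : F) else 0) =
      modelG2.nf (LF modelG2) (fun r => if r ∈ [9, 11, 10] then (if r = 9 then 1 else if r = 11 then c 8 else c 7) else 0) := by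
    rw [← h6, ← h7]
    simp only [List.map_cons, List.map_nil, List.prod_cons, List.prod_nil, mul_one]
    rw [h4]
    simp [mul_assoc]
  have h9 := coord_unique modelG2 h8 (r := 10) (by decide) (by decide)
  have h10 := coord_unique modelG2 h8 (r := 11) (by decide) (by decide)
  simp at h9 h10
  rw [hZ', ← h9, ← h10, modelG2.X_zero, modelG2.X_zero, one_mul, one_mul]
  exact hq

theorem s2180 [Fintype F] [CharP F 2] (z t : GL chevG2.Idx F) (hz : (z : Matrix chevG2.Idx chevG2.Idx F) = chevG2.x F 11 1)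
    (ht : (t : Matrix chevG2.Idx chevG2.Idx F) = chevG2.x F 9 1) :
    chevG2.group F ⊓ Subgroup.centralizer {z} = chevG2.posUnipotent F ⊔ chevG2.rootSubgroup F 4 ∧
    chevG2.group F ⊓ Subgroup.centralizer {t} = chevG2.rootSubgroup F 9 ⊔ chevG2.rootSubgroup F 10 ⊔ chevG2.rootSubgroup F 11 ⊔
      chevG2.rootSubgroup F 6 ⊔ chevG2.rootSubgroup F 5 := by
  refine ⟨?_, ?_⟩
  · rw [centralizer_list modelG2 dd_G2 (centU_last modelG2) hz, modelG2.rootSubgroup_eq]
    congr 1
    apply modelG2.gen_congr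
    intro r _
    simp
  · have htP : t = PS modelG2 [9] (fun _ => (1 : F)) := by
      apply Units.ext
      rw [ht]
      simp [PS, Model.coe_X]
    rw [htP, cd_G2.eq (Ψ := fun r => r ∈ [9, 10, 11]) hH_G2 (fun z hz hc => hZ_G2 hz hc)
      (psi_of_ck baseG2 checksG2 (by decide) (by decide +kernel))]
    simp only [modelG2.rootSubgroup_eq, gen_sup]
    apply modelG2.gen_congr
    intro r hr
    rw [inRoot_iff modelG2 baseG2 hfG2 ckJL_G2 hr]
    simp only [List.mem_cons, List.not_mem_nil, or_false]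
    tauto

end Cfsg.Agent.H14.Chev
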