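import Mathlib
import Cfsg.Agent.H14_InvD
import Cfsg.Agent.H6_ChevTabE6

set_option autoImplicit false
set_option maxRecDepth 100000

/-! Maximal positions of involutions in characteristic two, type E6 (table and kernel check). -/

namespace Cfsg.Agent.H14.Chev

open Cfsg Cfsg.Lie Cfsg.Agent.H6 Cfsg.Agent.H6.Chev

def invWE6 : List ℕ := [0x123142314354231435426542314354265431, 0x12314231435423143542654231435426543, 0x13142314354231435426542314354265431, 0x1314231435423143542654231435426543, 0x12314231435423143546542314354265431, 0x123142314354231435465423143542654, 0x1314231435423143546542314354265431, 0x13142314354231435465423143542654, 0x12314231454231435426542314354265431, 0x1231423145423143542654231435426543, 0x131423454231435426542314354265431, 0x13142345423143542654231435426543, 0x123142314542314356542314354265431, 0x123142314542314356542314354265, 0x131423454231436542314354265431, 0x13142345423143654231435465, 0x12342314354231435426542314354265431, 0x1234231435423143542654231435426543, 0x1342314354231435426542314354265431, 0x134231435423143542654231435426543, 0x1234231435423143546542314354265431, 0x12342314354231435465423143542654, 0x134231435423143546542314354265431,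 0x1342314354231435465423143542654, 0x123423154231435426542314354265431, 0x12342315423143542654231435426543, 0x134254231435426542314354265431, 0x13425423143542654231435426543, 0x123423154231456542314354265431, 0x12342315423145654231435426, 0x134254316542314354265431, 0x1342543165423456, 0x23142314354231435426542314354265431, 0x2314231435423143542654231435426543, 0x3142314354231435426542314354265431, 0x314231435423143542654231435426543, 0x2314231435423143546542314354265431, 0x23142314354231435465423143542654, 0x314231435423143546542314354265431, 0x3142314354231435465423143542654, 0x2314231454231435426542314354265431, 0x231423145423143542654231435426543, 0x31423454231435426542314354265431, 0x3142345423143542654231435426543, 0x23142314542314356542314354265431, 0x23142314542314356542314354265, 0x31423454231436542314354265431, 0x3142345423143654231435465, 0x242314354231435426542314354265431, 0x24231435423143542654231435426543, 0x42314354231435426542314354265431, 0x4231435423143542654231435426543, 0x24231435423143546542314354265431, 0x242314354231435465423143542654, 0x4231435423143546542314354265431, 0x42314354231435465423143542654, 0x243154231435426542314354265431,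 0x24315423143542654231435426543, 0x54231435426542314354265431, 0x5423143542654231435426543, 0x24315423456542314354265431, 0x243154234565423143542, 0x6542314354265431, 0x0]

def invIE6 : List ℕ := [15, 0, 1, 0, 2, 0, 2, 0, 3, 0, 1, 0, 2, 0, 1, 0, 4, 0, 4, 0, 2, 0, 2, 0, 3, 0, 1, 0, 15, 0, 2, 0, 5, 0, 5, 0, 2, 0, 2, 0, 5, 0, 1, 0, 2, 0, 1, 0, 4, 0, 4, 0, 2, 0, 2, 0, 3, 0, 1, 0, 2, 15, 1, 15]

def invJE6 : List ℕ := [15, 0, 3, 0, 2, 0, 2, 0, 1, 0, 1, 0, 2, 0, 1, 0, 4, 0, 4, 0, 2, 0, 2, 0, 3, 0, 1, 0, 15, 0, 2, 0, 5, 0, 5, 0, 2, 0, 2, 0, 5, 0, 1, 0, 2, 0, 1, 0, 4, 0, 4, 0, 2, 0, 2, 0, 3, 0, 1, 0, 2, 15, 1, 15]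

theorem ckInvE6 : tabE6.ckInv 37 invWE6 invIE6 invJE6 [0, 28, 61, 63] = true := by decide +kernel

end Cfsg.Agent.H14.Chev
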