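import Mathlib
import Cfsg.Agent.H14_InvG
import Cfsg.Agent.H14_InvTabE6

set_option autoImplicit false
set_option maxRecDepth 100000

/-! Classes of involutions in characteristic two, type E6. -/

namespace Cfsg.Agent.H14.Chev

open Cfsg Cfsg.Lie Cfsg.Lie.ChevalleyDatum Cfsg.Agent.H6 Cfsg.Agent.H6.Chev Cfsg.Agent.H6.Chev.Model
open scoped Matrix

def sE6_0 : List (Fin chevE6.rank) := ([0] : List (Fin 6))
def lE6_0 : List (Fin chevE6.rank) := ([4, 3, 2, 1, 3, 4, 5, 4, 3, 2, 1, 3, 4, 2, 1, 3, 2, 1] : List (Fin 6))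

theorem ckRE6_0 : tabE6.ckRep [71] (sE6_0.map Fin.val) (lE6_0.map Fin.val) 21 = true := by decide +kernel

theorem ckOE6_0 : tabE6.ckOrthL [71] = true := by decide +kernel

theorem rkE6_0 {F : Type*} [Field F] [CharP F 2] : 21 ≤ rk (xp modelE6 F [71]) ∧ rk (xp modelE6 F [71]) ≤ 22 :=
  rep_rk modelE6 baseE6 checksE6 sE6_0 lE6_0 ckRE6_0

def sE6_1 : List (Fin chevE6.rank) := ([0, 1] : List (Fin 6))
def lE6_1 : List (Fin chevE6.rank) := ([3, 4, 2, 3, 0, 2, 1, 3, 4, 5, 1, 3, 4, 0, 2, 1, 3, 2] : List (Fin 6))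

theorem ckRE6_1 : tabE6.ckRep [68, 66] (sE6_1.map Fin.val) (lE6_1.map Fin.val) 30 = true := by decide +kernel

theorem ckOE6_1 : tabE6.ckOrthL [68, 66] = true := by decide +kernel

theorem rkE6_1 {F : Type*} [Field F] [CharP F 2] : 30 ≤ rk (xp modelE6 F [68, 66]) ∧ rk (xp modelE6 F [68, 66]) ≤ 32 :=
  rep_rk modelE6 baseE6 checksE6 sE6_1 lE6_1 ckRE6_1

def sE6_2 : List (Fin chevE6.rank) := ([0, 1, 4] : List (Fin 6))
def lE6_2 : List (Fin chevE6.rank) := ([3, 2, 1, 3, 4, 5, 2, 3, 4, 0, 2, 1, 3, 2] : List (Fin 6))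

theorem ckRE6_2 : tabE6.ckRep [55, 65, 67] (sE6_2.map Fin.val) (lE6_2.map Fin.val) 35 = true := by decide +kernel

theorem ckOE6_2 : tabE6.ckOrthL [55, 65, 67] = true := by decide +kernel

theorem rkE6_2 {F : Type*} [Field F] [CharP F 2] : 35 ≤ rk (xp modelE6 F [55, 65, 67]) ∧ rk (xp modelE6 F [55, 65, 67]) ≤ 38 :=
  rep_rk modelE6 baseE6 checksE6 sE6_2 lE6_2 ckRE6_2

noncomputable def TE6 (F : Type*) [Field F] : Fin 3 → ↥(chevE6.group F) := ![xg1 modelE6 F [71], xg1 modelE6 F [68, 66], xg1 modelE6 F [55, 65, 67]]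

theorem mainE6 {F : Type*} [Field F] [Fintype F] [CharP F 2] :
    (∀ y : GL chevE6.Idx F, ((y : GL chevE6.Idx F) : Matrix chevE6.Idx chevE6.Idx F) ∈ [chevE6.x F 71 1, chevE6.x F 68 1 * chevE6.x F 66 1, chevE6.x F 55 1 * chevE6.x F 65 1 * chevE6.x F 67 1] → y ∈ chevE6.group F ∧ orderOf y = 2) ∧
    (∀ g ∈ chevE6.group F, orderOf g = 2 → ∃ y ∈ chevE6.group F, ((y : GL chevE6.Idx F) : Matrix chevE6.Idx chevE6.Idx F) ∈ [chevE6.x F 71 1, chevE6.x F 68 1 * chevE6.x F 66 1, chevE6.x F 55 1 * chevE6.x F 65 1 * chevE6.x F 67 1] ∧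
      ∃ h ∈ chevE6.group F, h * g * h⁻¹ = y) ∧
    (∀ y₁ ∈ chevE6.group F, ∀ y₂ ∈ chevE6.group F, ((y₁ : GL chevE6.Idx F) : Matrix chevE6.Idx chevE6.Idx F) ∈ [chevE6.x F 71 1, chevE6.x F 68 1 * chevE6.x F 66 1, chevE6.x F 55 1 * chevE6.x F 65 1 * chevE6.x F 67 1] →
      ((y₂ : GL chevE6.Idx F) : Matrix chevE6.Idx chevE6.Idx F) ∈ [chevE6.x F 71 1, chevE6.x F 68 1 * chevE6.x F 66 1, chevE6.x F 55 1 * chevE6.x F 65 1 * chevE6.x F 67 1] → (∃ h ∈ chevE6.group F, h * y₁ * h⁻¹ = y₂) →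
      ((y₁ : GL chevE6.Idx F) : Matrix chevE6.Idx chevE6.Idx F) = ((y₂ : GL chevE6.Idx F) : Matrix chevE6.Idx chevE6.Idx F)) := by
  have hck : tabE6.ckInv 37 invWE6 invIE6 invJE6 ([0, 28, 61] ++ [63]) = true := ckInvE6
  have hf : Tab.decW 37 (nth invWE6 63) = [] := by decide +kernel
  have hT : ∀ a, TE6 F a = match a with
    | 0 => xg1 modelE6 F [71]
    | 1 => xg1 modelE6 F [68, 66]
    | 2 => xg1 modelE6 F [55, 65, 67] := by
    intro a; fin_cases a <;> rfl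
  refine inv_main (F := F) modelE6 baseE6 checksE6 hck hf (TE6 F) ?_ ?_ ?_ _ ?_
  · intro a
    fin_cases a
    · exact xg1_sq modelE6 baseE6 checksE6 ckOE6_0
    · exact xg1_sq modelE6 baseE6 checksE6 ckOE6_1
    · exact xg1_sq modelE6 baseE6 checksE6 ckOE6_2
  · intro a
    fin_cases a
    · exact xg1_ne modelE6 (rkE6_0 (F := F)).1 (by norm_num)
    · exact xg1_ne modelE6 (rkE6_1 (F := F)).1 (by norm_num)
    · exact xg1_ne modelE6 (rkE6_2 (F := F)).1 (by norm_num)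
  · intro a b hab
    apply not_conj_of_rk
    have h0 := rkE6_0 (F := F)
    have h1 := rkE6_1 (F := F)
    have h2 := rkE6_2 (F := F)
    fin_cases a <;> fin_cases b <;> first | exact absurd rfl hab | skip
    all_goals
      simp only [TE6, xg1]
      change rk (xp modelE6 F _) ≠ rk (xp modelE6 F _)
      omega
  · intro M
    constructor
    · intro hM
      simp only [List.mem_cons, List.not_mem_nil, or_false] at hM
      rcases hM with rfl | rfl | rfl
      · exact ⟨0, (xp_single modelE6 71).symm⟩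
      · exact ⟨1, (xp_pair modelE6 68 66).symm⟩
      · exact ⟨2, (xp_triple modelE6 55 65 67).symm⟩
    · rintro ⟨a, rfl⟩
      simp only [List.mem_cons, List.not_mem_nil, or_false]
      fin_cases a
      · left; exact xp_single modelE6 71
      · right; left; exact xp_pair modelE6 68 66
      · right; right; exact xp_triple modelE6 55 65 67


end Cfsg.Agent.H14.Chev
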