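import Mathlib
import Cfsg.Agent.H14_InvG
import Cfsg.Agent.H14_InvTabE7

set_option autoImplicit false
set_option maxRecDepth 100000

/-! Classes of involutions in characteristic two, type E7. -/

namespace Cfsg.Agent.H14.Chev

open Cfsg Cfsg.Lie Cfsg.Lie.ChevalleyDatum Cfsg.Agent.H6 Cfsg.Agent.H6.Chev Cfsg.Agent.H6.Chev.Model
open scoped Matrix

def sE7_0 : List (Fin chevE7.rank) := ([0] : List (Fin 7))

theorem ckRE7_0 : tabE7.ckRep [93] (sE7_0.map Fin.val) (([] : List (Fin chevE7.rank)).map Fin.val) 33 = true := by decide +kernel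

theorem ckOE7_0 : tabE7.ckOrthL [93] = true := by decide +kernel

theorem rkE7_0 {F : Type*} [Field F] [CharP F 2] : 33 ≤ rk (xp modelE7 F [93]) ∧ rk (xp modelE7 F [93]) ≤ 34 :=
  rep_rk modelE7 baseE7 checksE7 sE7_0 [] ckRE7_0

def sE7_1 : List (Fin chevE7.rank) := ([1, 2] : List (Fin 7))

theorem ckRE7_1 : tabE7.ckRep [78, 73] (sE7_1.map Fin.val) (([] : List (Fin chevE7.rank)).map Fin.val) 50 = true := by decide +kernel

theorem ckOE7_1 : tabE7.ckOrthL [78, 73] = true := by decide +kernel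

theorem rkE7_1 {F : Type*} [Field F] [CharP F 2] : 50 ≤ rk (xp modelE7 F [78, 73]) ∧ rk (xp modelE7 F [78, 73]) ≤ 52 :=
  rep_rk modelE7 baseE7 checksE7 sE7_1 [] ckRE7_1

def sE7_2 : List (Fin chevE7.rank) := ([1, 4, 6] : List (Fin 7))

theorem ckRE7_2 : tabE7.ckRep [78, 66, 63] (sE7_2.map Fin.val) (([] : List (Fin chevE7.rank)).map Fin.val) 51 = true := by decide +kernel

theorem ckOE7_2 : tabE7.ckOrthL [78, 66, 63] = true := by decide +kernel

theorem rkE7_2 {F : Type*} [Field F] [CharP F 2] : 51 ≤ rk (xp modelE7 F [78, 66, 63]) ∧ rk (xp modelE7 F [78, 66, 63]) ≤ 54 :=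
  rep_rk modelE7 baseE7 checksE7 sE7_2 [] ckRE7_2

def sE7_3 : List (Fin chevE7.rank) := ([1, 2, 4] : List (Fin 7))

theorem ckRE7_3 : tabE7.ckRep [78, 73, 66] (sE7_3.map Fin.val) (([] : List (Fin chevE7.rank)).map Fin.val) 59 = true := by decide +kernel

theorem ckOE7_3 : tabE7.ckOrthL [78, 73, 66] = true := by decide +kernel

theorem rkE7_3 {F : Type*} [Field F] [CharP F 2] : 59 ≤ rk (xp modelE7 F [78, 73, 66]) ∧ rk (xp modelE7 F [78, 73, 66]) ≤ 62 :=
  rep_rk modelE7 baseE7 checksE7 sE7_3 [] ckRE7_3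

def sE7_4 : List (Fin chevE7.rank) := ([1, 2, 4, 6] : List (Fin 7))

theorem ckRE7_4 : tabE7.ckRep [78, 73, 66, 63] (sE7_4.map Fin.val) (([] : List (Fin chevE7.rank)).map Fin.val) 60 = true := by decide +kernel

theorem ckOE7_4 : tabE7.ckOrthL [78, 73, 66, 63] = true := by decide +kernel

theorem rkE7_4 {F : Type*} [Field F] [CharP F 2] : 60 ≤ rk (xp modelE7 F [78, 73, 66, 63]) ∧ rk (xp modelE7 F [78, 73, 66, 63]) ≤ 64 :=
  rep_rk modelE7 baseE7 checksE7 sE7_4 [] ckRE7_4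


theorem rkE7_2' {F : Type*} [Field F] [CharP F 2] : 53 ≤ rk (xp modelE7 F [78, 66, 63]) := by
  obtain ⟨g, _, hg⟩ := rep_conj (F := F) modelE7 baseE7 checksE7 sE7_2 [] ckRE7_2
  have e : rk (xp modelE7 F [78, 66, 63]) = rk (modelE7.nl F sE7_2) := by rw [← hg, rk_conj]
  rw [e]
  have hw : modelE7.wl sE7_2 * modelE7.wl sE7_2 = 1 := wl_sq_of modelE7 baseE7 checksE7 sE7_2 (by decide +kernel)
  have hc : (RR (modelE7.wl sE7_2)).card = 51 := by
    rw [card_RR modelE7 baseE7 checksE7]; decide +kernel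
  have hnd : sE7_2.Nodup := by decide
  have horth : ∀ a ∈ sE7_2, ∀ b ∈ sE7_2, a ≠ b → chevE7.cartan a (chevE7.simple b) = 0 := by decide +kernel
  let rows : Fin 2 → Fin chevE7.rank := ![⟨1, by decide⟩, ⟨6, by decide⟩]
  let cols : Fin 2 → Fin chevE7.rank := ![⟨3, by decide⟩, ⟨5, by decide⟩]
  let M : Fin 2 → Fin 2 → ℤ := ![![1, 0], ![0, 1]]
  have hrows : ∀ a, rows a ∈ sE7_2 := by decide
  have hM : ∀ a b, chevE7.cartan (cols b) (chevE7.simple (rows a)) = - M a b := by decide +kernel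
  have := le_rk modelE7 (F := F) sE7_2 hw rows cols (fun a b => ((M a b : ℤ) : F)) ?_ ?_
  · rw [hc] at this; exact this
  · intro a b
    rw [nl_hb_inl modelE7 sE7_2 hnd horth _ (hrows a), hM]
    push_cast
    ring
  · intro g hg
    have h0 := hg 0
    have h1 := hg 1
    simp [Fin.sum_univ_two, M] at h0 h1
    ext a
    fin_cases a
    · exact h0
    · exact h1

theorem rkE7_4' {F : Type*} [Field F] [CharP F 2] : 63 ≤ rk (xp modelE7 F [78, 73, 66, 63]) := by
  obtain ⟨g, _, hg⟩ := rep_conj (F := F) modelE7 baseE7 checksE7 sE7_4 [] ckRE7_4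
  have e : rk (xp modelE7 F [78, 73, 66, 63]) = rk (modelE7.nl F sE7_4) := by rw [← hg, rk_conj]
  rw [e]
  have hw : modelE7.wl sE7_4 * modelE7.wl sE7_4 = 1 := wl_sq_of modelE7 baseE7 checksE7 sE7_4 (by decide +kernel)
  have hc : (RR (modelE7.wl sE7_4)).card = 60 := by
    rw [card_RR modelE7 baseE7 checksE7]; decide +kernel
  have hnd : sE7_4.Nodup := by decide
  have horth : ∀ a ∈ sE7_4, ∀ b ∈ sE7_4, a ≠ b → chevE7.cartan a (chevE7.simple b) = 0 := by decide +kernel
  let rows : Fin 3 → Fin chevE7.rank := ![⟨2, by decide⟩, ⟨1, by decide⟩, ⟨6, by decide⟩]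
  let cols : Fin 3 → Fin chevE7.rank := ![⟨0, by decide⟩, ⟨3, by decide⟩, ⟨5, by decide⟩]
  let M : Fin 3 → Fin 3 → ℤ := ![![1, 1, 0], ![0, 1, 0], ![0, 0, 1]]
  have hrows : ∀ a, rows a ∈ sE7_4 := by decide
  have hM : ∀ a b, chevE7.cartan (cols b) (chevE7.simple (rows a)) = - M a b := by decide +kernel
  have := le_rk modelE7 (F := F) sE7_4 hw rows cols (fun a b => ((M a b : ℤ) : F)) ?_ ?_
  · rw [hc] at this; exact this
  · intro a b
    rw [nl_hb_inl modelE7 sE7_4 hnd horth _ (hrows a), hM]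
    push_cast
    ring
  · intro g hg
    have h0 := hg 0
    have h1 := hg 1
    have h2 := hg 2
    simp [Fin.sum_univ_three, M] at h0 h1 h2
    rw [h1, add_zero] at h0
    ext a
    fin_cases a
    · exact h0
    · exact h1
    · exact h2

noncomputable def TE7 (F : Type*) [Field F] : Fin 5 → ↥(chevE7.group F) :=
  ![xg1 modelE7 F [93], xg1 modelE7 F [78, 73], xg1 modelE7 F [78, 66, 63], xg1 modelE7 F [78, 73, 66], xg1 modelE7 F [78, 73, 66, 63]]

theorem TE7_facts {F : Type*} [Field F] [Fintype F] [CharP F 2] : (∀ a, TE7 F a * TE7 F a = 1) ∧ (∀ a, TE7 F a ≠ 1) ∧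
    (∀ a b, a ≠ b → ¬ ∃ g : ↥(chevE7.group F), g * TE7 F a * g⁻¹ = TE7 F b) := by
  refine ⟨?_, ?_, ?_⟩
  · intro a
    fin_cases a
    · exact xg1_sq modelE7 baseE7 checksE7 ckOE7_0
    · exact xg1_sq modelE7 baseE7 checksE7 ckOE7_1
    · exact xg1_sq modelE7 baseE7 checksE7 ckOE7_2
    · exact xg1_sq modelE7 baseE7 checksE7 ckOE7_3
    · exact xg1_sq modelE7 baseE7 checksE7 ckOE7_4
  · intro a
    fin_cases a
    · exact xg1_ne modelE7 (rkE7_0 (F := F)).1 (by norm_num)
    · exact xg1_ne modelE7 (rkE7_1 (F := F)).1 (by norm_num)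
    · exact xg1_ne modelE7 (rkE7_2 (F := F)).1 (by norm_num)
    · exact xg1_ne modelE7 (rkE7_3 (F := F)).1 (by norm_num)
    · exact xg1_ne modelE7 (rkE7_4 (F := F)).1 (by norm_num)
  · intro a b hab
    have h0 := rkE7_0 (F := F)
    have h1 := rkE7_1 (F := F)
    have h2 := rkE7_2 (F := F)
    have h3 := rkE7_3 (F := F)
    have h4 := rkE7_4 (F := F)
    have h2' := rkE7_2' (F := F)
    have h4' := rkE7_4' (F := F)
    fin_cases a <;> fin_cases b <;> first | exact absurd rfl hab | exact not_conj_of_rk (show rk (xp modelE7 F _) ≠ rk (xp modelE7 F _) by omega)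

theorem mainE7 {F : Type*} [Field F] [Fintype F] [CharP F 2] :
    (ConjClasses.mk '' {g : ↥(chevE7.group F) | orderOf g = 2}).ncard = 5 := by
  have hck : tabE7.ckInv 64 invWE7 invIE7 invJE7 ([0, 30, 82, 94, 126] ++ [127]) = true := ckInvE7
  have hf : Tab.decW 64 (nth invWE7 127) = [] := by decide +kernel
  obtain ⟨hsq, h1, hne⟩ := TE7_facts (F := F)
  have hall := inv_count (F := F) modelE7 baseE7 checksE7 hck hf (TE7 F) hsq h1 hne
  have himg : ConjClasses.mk '' {g : ↥(chevE7.group F) | orderOf g = 2} = Set.range fun a => ConjClasses.mk (TE7 F a) := by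
    ext c
    constructor
    · rintro ⟨g, hg, rfl⟩
      have hg2 : g * g = 1 := by
        rw [← pow_two, ← (show orderOf g = 2 from hg), pow_orderOf_eq_one]
      have hg1 : g ≠ 1 := by
        rintro rfl
        have : orderOf (1 : ↥(chevE7.group F)) = 2 := hg
        rw [orderOf_one] at this
        omega
      obtain ⟨a, k, hk⟩ := hall g hg2 hg1
      refine ⟨a, ?_⟩
      change ConjClasses.mk (TE7 F a) = ConjClasses.mk g
      rw [ConjClasses.mk_eq_mk_iff_isConj]
      exact (isConj_iff.2 ⟨k, hk⟩ : IsConj g (TE7 F a)).symm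
    · rintro ⟨a, rfl⟩
      refine ⟨TE7 F a, orderOf_eq_prime ?_ (h1 a), rfl⟩
      rw [pow_two]; exact hsq a
  have hinj : Function.Injective fun a => ConjClasses.mk (TE7 F a) := by
    intro a b hab
    by_contra hne'
    change ConjClasses.mk (TE7 F a) = ConjClasses.mk (TE7 F b) at hab
    rw [ConjClasses.mk_eq_mk_iff_isConj] at hab
    exact hne a b hne' (isConj_iff.1 hab)
  rw [himg, ← Set.image_univ, Set.ncard_image_of_injective _ hinj, Set.ncard_univ, Nat.card_eq_fintype_card, Fintype.card_fin]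

end Cfsg.Agent.H14.Chev
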