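import Mathlib
import Cfsg.Agent.H14_InvD
import Cfsg.Agent.H6_ChevTabF4

set_option autoImplicit false
set_option maxRecDepth 100000

/-! Maximal positions of involutions in characteristic two, type F4 (table and kernel check). -/

namespace Cfsg.Agent.H14.Chev

open Cfsg Cfsg.Lie Cfsg.Agent.H6 Cfsg.Agent.H6.Chev

def invWF4 : List ℕ := [0x121321323432132343213234, 0x21321323432132343213234, 0x12321323432132343213234, 0x321323432132343213234, 0x12132132432132343213234, 0x2132132432132343213234, 0x12321432132343213234, 0x432132343213234, 0x12132132343213234321323, 0x2132132343213234321323, 0x1232132343213234321323, 0x32132343213234321323, 0x121321324321323432132, 0x21321324321323432132, 0x123214321324321, 0x0]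

def invIF4 : List ℕ := [15, 0, 1, 0, 2, 2, 15, 15, 3, 3, 1, 0, 2, 2, 15, 15]

def invJF4 : List ℕ := [15, 1, 0, 0, 3, 3, 15, 15, 2, 2, 0, 0, 2, 2, 15, 15]

theorem ckInvF4 : tabF4.ckInv 25 invWF4 invIF4 invJF4 [0, 6, 7, 14, 15] = true := by decide +kernel

end Cfsg.Agent.H14.Chev
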