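import Mathlib
import Cfsg.Agent.H14_InvH
import Cfsg.Agent.H14_InvTabF4

set_option autoImplicit false
set_option maxRecDepth 100000

/-! Classes of involutions in characteristic two, type F4. -/

namespace Cfsg.Agent.H14.Chev

open Cfsg Cfsg.Lie Cfsg.Lie.ChevalleyDatum Cfsg.Agent.H6 Cfsg.Agent.H6.Chev Cfsg.Agent.H6.Chev.Model
open scoped Matrix

def sF4_0 : List (Fin chevF4.rank) := ([2] : List (Fin 4))
def lF4_0 : List (Fin chevF4.rank) := ([3, 1, 2, 0, 1, 2, 3, 0, 1] : List (Fin 4))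

theorem ckRF4_0 : tabF4.ckRep [47] (sF4_0.map Fin.val) (lF4_0.map Fin.val) 15 = true := by decide +kernel

theorem ckOF4_0 : tabF4.ckOrthL [47] = true := by decide +kernel

theorem rkF4_0 {F : Type*} [Field F] [CharP F 2] : 15 ≤ rk (xp modelF4 F [47]) ∧ rk (xp modelF4 F [47]) ≤ 16 :=
  rep_rk modelF4 baseF4 checksF4 sF4_0 lF4_0 ckRF4_0

def sF4_1 : List (Fin chevF4.rank) := ([0] : List (Fin 4))
def lF4_1 : List (Fin chevF4.rank) := ([1, 2, 3, 1, 2, 0, 1, 2, 3, 0, 1, 2, 1] : List (Fin 4))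

theorem ckRF4_1 : tabF4.ckRep [44] (sF4_1.map Fin.val) (lF4_1.map Fin.val) 15 = true := by decide +kernel

theorem ckOF4_1 : tabF4.ckOrthL [44] = true := by decide +kernel

theorem rkF4_1 {F : Type*} [Field F] [CharP F 2] : 15 ≤ rk (xp modelF4 F [44]) ∧ rk (xp modelF4 F [44]) ≤ 16 :=
  rep_rk modelF4 baseF4 checksF4 sF4_1 lF4_1 ckRF4_1

def sF4_3 : List (Fin chevF4.rank) := ([0, 2] : List (Fin 4))
def lF4_3 : List (Fin chevF4.rank) := ([2, 1, 2, 0, 1, 2, 3, 1, 2, 0, 1] : List (Fin 4))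

theorem ckRF4_3 : tabF4.ckRep [39, 45] (sF4_3.map Fin.val) (lF4_3.map Fin.val) 22 = true := by decide +kernel

theorem ckOF4_3 : tabF4.ckOrthL [39, 45] = true := by decide +kernel

theorem rkF4_3 {F : Type*} [Field F] [CharP F 2] : 22 ≤ rk (xp modelF4 F [39, 45]) ∧ rk (xp modelF4 F [39, 45]) ≤ 24 :=
  rep_rk modelF4 baseF4 checksF4 sF4_3 lF4_3 ckRF4_3


/-- the element `x_39(1) x_45(1)` has rank at least 23 -/
theorem rkF4_3' {F : Type*} [Field F] [CharP F 2] : 23 ≤ rk (xp modelF4 F [39, 45]) := by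
  obtain ⟨g, _, hg⟩ := rep_conj (F := F) modelF4 baseF4 checksF4 sF4_3 lF4_3 ckRF4_3
  have e : rk (xp modelF4 F [39, 45]) = rk (modelF4.nl F sF4_3) := by rw [← hg, rk_conj]
  rw [e]
  have hw : modelF4.wl sF4_3 * modelF4.wl sF4_3 = 1 := wl_sq_of modelF4 baseF4 checksF4 sF4_3 (by decide +kernel)
  have hc : (RR (modelF4.wl sF4_3)).card = 22 := by
    rw [card_RR modelF4 baseF4 checksF4]; decide +kernel
  have hnd : sF4_3.Nodup := by decide
  have horth : ∀ a ∈ sF4_3, ∀ b ∈ sF4_3, a ≠ b → chevF4.cartan a (chevF4.simple b) = 0 := by decide +kernel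
  have hmem : (⟨2, by decide⟩ : Fin chevF4.rank) ∈ sF4_3 := by decide
  have h1 : chevF4.cartan (⟨3, by decide⟩ : Fin chevF4.rank) (chevF4.simple (⟨2, by decide⟩ : Fin chevF4.rank)) = -1 := by decide +kernel
  have := le_rk modelF4 (F := F) sF4_3 hw (k := 1) (fun _ => ⟨2, by decide⟩) (fun _ => ⟨3, by decide⟩) (fun _ _ => 1) ?_ ?_
  · rw [hc] at this; exact this
  · intro a b
    rw [nl_hb_inl modelF4 sF4_3 hnd horth _ hmem, h1]
    simp
  · intro g hg
    ext a
    have h2 := hg 0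
    fin_cases a
    simpa using h2

def βF4 : Fin chevF4.nroots := ⟨30, by decide⟩
def αF4 : Fin chevF4.nroots := ⟨28, by decide⟩
def δF4 : Fin chevF4.nroots := ⟨25, by decide⟩
def i1F4 : Fin chevF4.rank := ⟨1, by decide⟩
def i2F4 : Fin chevF4.rank := ⟨2, by decide⟩
def lF4_2 : List (Fin chevF4.rank) := ([3, 2, 0, 1, 2, 3, 1, 0] : List (Fin 4))
def sF4_2 : List (Fin chevF4.rank) := [i1F4, i2F4, i1F4, i2F4]

theorem F4_comm {F : Type*} [Field F] {r s : ℕ} (hr : r < 48) (hs : s < 48) (h1 : s ≠ r) (h2 : s ≠ tabF4.ng r) (h : tabF4.cm r s = []) (a b : F) :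
    Commute (modelF4.X r a) (modelF4.X s b) := by
  refine comm_of_nil modelF4 hr hs h1 ?_ ?_ a b
  · rw [baseF4.ng_eq hr]; exact h2
  · rw [Tab.commTerms_eq baseF4 checksF4 hr hs]; exact h

theorem F4_sq2 {F : Type*} [Field F] [CharP F 2] : xp modelF4 F [47, 44] * xp modelF4 F [47, 44] = 1 := by
  have h := F4_comm (F := F) (r := 47) (s := 44) (by norm_num) (by norm_num) (by norm_num) (by decide) (by decide +kernel) 1 1
  apply list_prod_sq
  · simp only [List.map_cons, List.map_nil]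
    exact List.Pairwise.cons (fun x hx => by rw [List.mem_singleton.1 hx]; exact h) (List.pairwise_singleton _ _)
  · intro x hx
    obtain ⟨r, _, rfl⟩ := List.mem_map.1 hx
    exact X_sq2 modelF4 r 1

/-- `x_47(1) x_44(1)` is conjugate to the longest element of the subsystem of type B2 -/
theorem F4_conj2 {F : Type*} [Field F] [CharP F 2] : ∃ g : GL chevF4.Idx F, g * xp modelF4 F [47, 44] * g⁻¹ = modelF4.nl F sF4_2 := by
  have h2 : (2 : F) = 0 := CharTwo.two_eq_zero
  -- the Weyl group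
  have e1 : modelF4.wl lF4_2 βF4 = ⟨47, by decide⟩ := Fin.ext ((Tab.pw_eq modelF4 baseF4 checksF4 _ _).trans (by decide +kernel))
  have e2 : modelF4.wl lF4_2 αF4 = ⟨44, by decide⟩ := Fin.ext ((Tab.pw_eq modelF4 baseF4 checksF4 _ _).trans (by decide +kernel))
  have e3 : modelF4.wl [i1F4] δF4 = βF4 := Fin.ext ((Tab.pw_eq modelF4 baseF4 checksF4 _ _).trans (by decide +kernel))
  have e4 : modelF4.p i2F4 = δF4 := Fin.ext (by decide +kernel)
  have h3 := nl_X2 modelF4 lF4_2 βF4 (1 : F)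
  have h4 := nl_X2 modelF4 lF4_2 αF4 (1 : F)
  rw [e1] at h3
  rw [e2] at h4
  set M := modelF4.nl F lF4_2 with hM
  have h3' : modelF4.X 47 (1 : F) = M * modelF4.X βF4 1 * M⁻¹ := by rw [h3]; group
  have h4' : modelF4.X 44 (1 : F) = M * modelF4.X αF4 1 * M⁻¹ := by rw [h4]; group
  -- the commutators
  have c1 : Commute (modelF4.X 20 (1 : F)) (modelF4.X αF4 1) := by
    have h5 := modelF4.X_comm_formula (F := F) (r := 28) (s := 20) (by decide) (by decide) (by decide)
      (by rw [baseF4.ng_eq (by decide)]; decide) 1 1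
    rw [ChevalleyDatum.commWord, Tab.commTerms_eq baseF4 checksF4 (by decide) (by decide),
      show tabF4.cm 28 20 = [(25, 2, 1, 1)] by decide +kernel] at h5
    simp only [List.map_cons, List.map_nil, Int.cast_ofNat, h2, zero_mul] at h5
    rw [Model.word_cons, Model.word_nil, modelF4.X_zero, mul_one, mul_one] at h5
    exact h5
  have c2 : modelF4.X 20 (1 : F) * modelF4.X βF4 1 = modelF4.X βF4 1 * modelF4.X 20 1 * (modelF4.X αF4 1 * modelF4.X δF4 1) := by
    have h5 := modelF4.X_comm_formula (F := F) (r := 30) (s := 20) (by decide) (by decide) (by decide)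
      (by rw [baseF4.ng_eq (by decide)]; decide) 1 1
    rw [ChevalleyDatum.commWord, Tab.commTerms_eq baseF4 checksF4 (by decide) (by decide),
      show tabF4.cm 30 20 = [(28, -1, 1, 1), (25, -1, 1, 2)] by decide +kernel] at h5
    simp only [List.map_cons, List.map_nil, Int.cast_neg, Int.cast_one, CharTwo.neg_eq, one_mul, one_pow] at h5
    rw [Model.word_cons, Model.word_cons, Model.word_nil, mul_one] at h5
    exact h5
  have c3 : Commute (modelF4.X δF4 (1 : F)) (modelF4.X 20 1) := by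
    have h5 := comm_simple modelF4 (F := F) (i := i2F4) (j := i1F4) (by decide) 1 1
    rw [e4] at h5
    exact h5.symm
  have c4 : Commute (modelF4.X αF4 (1 : F)) (modelF4.X δF4 1) :=
    F4_comm (r := 28) (s := 25) (by norm_num) (by norm_num) (by norm_num) (by decide) (by decide +kernel) 1 1
  -- orthogonal long roots
  have ho : Orth chevF4 βF4 δF4 := (ckOrthP_iff baseF4 checksF4 (r := 30) (s := 25) (by decide +kernel)).1
  have h6 := orth_conj (F := F) modelF4 [βF4, δF4] (List.Pairwise.cons (fun x hx => by rw [List.mem_singleton.1 hx]; exact ho)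
    (List.pairwise_singleton _ _))
  simp only [List.map_cons, List.map_nil, List.prod_cons, List.prod_nil, mul_one] at h6
  set G := modelF4.X (modelF4.ng βF4) (1 : F) * modelF4.X (modelF4.ng δF4) 1 with hG
  have h7 := nl_nn2 (F := F) modelF4 [i1F4] δF4
  rw [e3] at h7
  have h8 : modelF4.nl F [i1F4] = modelF4.n F i1F4 := by simp [Model.nl]
  rw [h8] at h7
  have h9 : modelF4.nn δF4 (1 : F) = modelF4.n F i2F4 := by rw [← e4]; rfl
  have h10 : modelF4.nn βF4 (1 : F) = modelF4.n F i1F4 * modelF4.n F i2F4 * modelF4.n F i1F4 := by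
    rw [← h9, h7, mul_assoc, n_sq2, mul_one]
  have h12' : modelF4.nl F [i2F4] = modelF4.n F i2F4 := by simp [Model.nl]
  have h11 : modelF4.nl F sF4_2 = modelF4.n F i1F4 * (modelF4.n F i2F4 * (modelF4.n F i1F4 * modelF4.n F i2F4)) := by
    rw [sF4_2, modelF4.nl_cons, modelF4.nl_cons, modelF4.nl_cons, h12']
  refine ⟨G * modelF4.X 20 1 * M⁻¹, ?_⟩
  have h12 : xp modelF4 F [47, 44] = M * (modelF4.X βF4 1 * modelF4.X αF4 1) * M⁻¹ := by
    unfold xp
    simp only [List.map_cons, List.map_nil, List.prod_cons, List.prod_nil, mul_one]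
    rw [h3', h4']; group
  set Y := modelF4.X 20 (1 : F) with hY
  set xb := modelF4.X βF4 (1 : F)
  set xa := modelF4.X αF4 (1 : F)
  set xd := modelF4.X δF4 (1 : F)
  have h13 : Y * (xb * xa) * Y⁻¹ = xb * xd := by
    have haa : xa * xa = 1 := X_sq2 modelF4 _ _
    calc Y * (xb * xa) * Y⁻¹ = (Y * xb) * xa * Y⁻¹ := by group
      _ = xb * Y * (xa * xd) * xa * Y⁻¹ := by rw [c2]
      _ = xb * Y * xa * (xd * xa) * Y⁻¹ := by group
      _ = xb * Y * (xa * xa) * xd * Y⁻¹ := by rw [← c4.eq]; group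
      _ = xb * (Y * xd) * Y⁻¹ := by rw [haa]; group
      _ = xb * xd := by rw [← c3.eq]; group
  rw [h12, h11]
  calc G * Y * M⁻¹ * (M * (xb * xa) * M⁻¹) * (G * Y * M⁻¹)⁻¹ = G * (Y * (xb * xa) * Y⁻¹) * G⁻¹ := by group
    _ = G * (xb * xd) * G⁻¹ := by rw [h13]
    _ = _ := by rw [h6, h9, h10]; group

theorem rkF4_2 {F : Type*} [Field F] [CharP F 2] : 20 ≤ rk (xp modelF4 F [47, 44]) ∧ rk (xp modelF4 F [47, 44]) ≤ 22 := by
  obtain ⟨g, hg⟩ := F4_conj2 (F := F)
  have e : rk (xp modelF4 F [47, 44]) = rk (modelF4.nl F sF4_2) := by rw [← hg, rk_conj]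
  have hw : modelF4.wl sF4_2 * modelF4.wl sF4_2 = 1 := wl_sq_of modelF4 baseF4 checksF4 sF4_2 (by decide +kernel)
  have hc : (RR (modelF4.wl sF4_2)).card = 20 := by
    rw [card_RR modelF4 baseF4 checksF4]; decide +kernel
  have hs : sF4_2.toFinset.card = 2 := by decide +kernel
  have h1 := le_rk0 (F := F) modelF4 sF4_2 hw
  have h2 := rk_le (F := F) modelF4 sF4_2 hw
  rw [hc] at h1 h2
  rw [hs] at h2
  rw [e]
  exact ⟨h1, h2⟩

theorem F4_ls {F : Type*} [Field F] : ¬ ∃ g : ↥(chevF4.group F), g * xg1 modelF4 F [47] * g⁻¹ = xg1 modelF4 F [44] := by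
  rintro ⟨g, hg⟩
  have h1 := congrArg Subtype.val hg
  have hm : tabF4.ckMask 261691415953527 = true := by decide +kernel
  refine not_conj_ls (F := F) modelF4 (r := ⟨47, by decide⟩) (s := ⟨44, by decide⟩) (centU_last modelF4) (by decide) ?_ g.2 ?_
  · intro w hw he
    have h2 := mask_eq modelF4 baseF4 checksF4 hm hw ⟨47, by decide⟩
    rw [he] at h2
    exact absurd h2 (by decide +kernel)
  · have e1 : xp modelF4 F [47] = modelF4.X 47 1 := by simp [xp]
    have e2 : xp modelF4 F [44] = modelF4.X 44 1 := by simp [xp]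
    have h3 : (g : GL chevF4.Idx F) * xp modelF4 F [47] * (g : GL chevF4.Idx F)⁻¹ = xp modelF4 F [44] := h1
    rw [e1, e2] at h3
    exact h3

noncomputable def TF4 (F : Type*) [Field F] : Fin 4 → ↥(chevF4.group F) :=
  ![xg1 modelF4 F [47], xg1 modelF4 F [44], xg1 modelF4 F [47, 44], xg1 modelF4 F [39, 45]]

theorem mainF4 {F : Type*} [Field F] [Fintype F] [CharP F 2] :
    (∀ y : GL chevF4.Idx F, ((y : GL chevF4.Idx F) : Matrix chevF4.Idx chevF4.Idx F) ∈ [chevF4.x F 47 1, chevF4.x F 44 1, chevF4.x F 47 1 * chevF4.x F 44 1, chevF4.x F 39 1 * chevF4.x F 45 1] → y ∈ chevF4.group F ∧ orderOf y = 2) ∧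
    (∀ g ∈ chevF4.group F, orderOf g = 2 → ∃ y ∈ chevF4.group F, ((y : GL chevF4.Idx F) : Matrix chevF4.Idx chevF4.Idx F) ∈ [chevF4.x F 47 1, chevF4.x F 44 1, chevF4.x F 47 1 * chevF4.x F 44 1, chevF4.x F 39 1 * chevF4.x F 45 1] ∧
      ∃ h ∈ chevF4.group F, h * g * h⁻¹ = y) ∧
    (∀ y₁ ∈ chevF4.group F, ∀ y₂ ∈ chevF4.group F, ((y₁ : GL chevF4.Idx F) : Matrix chevF4.Idx chevF4.Idx F) ∈ [chevF4.x F 47 1, chevF4.x F 44 1, chevF4.x F 47 1 * chevF4.x F 44 1, chevF4.x F 39 1 * chevF4.x F 45 1] →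
      ((y₂ : GL chevF4.Idx F) : Matrix chevF4.Idx chevF4.Idx F) ∈ [chevF4.x F 47 1, chevF4.x F 44 1, chevF4.x F 47 1 * chevF4.x F 44 1, chevF4.x F 39 1 * chevF4.x F 45 1] → (∃ h ∈ chevF4.group F, h * y₁ * h⁻¹ = y₂) →
      ((y₁ : GL chevF4.Idx F) : Matrix chevF4.Idx chevF4.Idx F) = ((y₂ : GL chevF4.Idx F) : Matrix chevF4.Idx chevF4.Idx F)) := by
  have hck : tabF4.ckInv 25 invWF4 invIF4 invJF4 ([0, 6, 7, 14] ++ [15]) = true := ckInvF4
  have hf : Tab.decW 25 (nth invWF4 15) = [] := by decide +kernel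
  refine inv_main (F := F) modelF4 baseF4 checksF4 hck hf (TF4 F) ?_ ?_ ?_ _ ?_
  · intro a
    fin_cases a
    · exact xg1_sq modelF4 baseF4 checksF4 ckOF4_0
    · exact xg1_sq modelF4 baseF4 checksF4 ckOF4_1
    · exact Subtype.ext F4_sq2
    · exact xg1_sq modelF4 baseF4 checksF4 ckOF4_3
  · intro a
    fin_cases a
    · exact xg1_ne modelF4 (rkF4_0 (F := F)).1 (by norm_num)
    · exact xg1_ne modelF4 (rkF4_1 (F := F)).1 (by norm_num)
    · exact xg1_ne modelF4 (rkF4_2 (F := F)).1 (by norm_num)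
    · exact xg1_ne modelF4 (rkF4_3 (F := F)).1 (by norm_num)
  · intro a b hab
    have h0 := rkF4_0 (F := F)
    have h1 := rkF4_1 (F := F)
    have h2 := rkF4_2 (F := F)
    have h3 := rkF4_3 (F := F)
    have h3' := rkF4_3' (F := F)
    fin_cases a <;> fin_cases b
    · exact absurd rfl hab
    · exact F4_ls
    · exact not_conj_of_rk (show rk (xp modelF4 F _) ≠ rk (xp modelF4 F _) by omega)
    · exact not_conj_of_rk (show rk (xp modelF4 F _) ≠ rk (xp modelF4 F _) by omega)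
    · rintro ⟨g, hg⟩
      refine F4_ls (F := F) ⟨g⁻¹, ?_⟩
      change g * xg1 modelF4 F [44] * g⁻¹ = xg1 modelF4 F [47] at hg
      rw [← hg]; group
    · exact absurd rfl hab
    · exact not_conj_of_rk (show rk (xp modelF4 F _) ≠ rk (xp modelF4 F _) by omega)
    · exact not_conj_of_rk (show rk (xp modelF4 F _) ≠ rk (xp modelF4 F _) by omega)
    · exact not_conj_of_rk (show rk (xp modelF4 F _) ≠ rk (xp modelF4 F _) by omega)
    · exact not_conj_of_rk (show rk (xp modelF4 F _) ≠ rk (xp modelF4 F _) by omega)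
    · exact absurd rfl hab
    · exact not_conj_of_rk (show rk (xp modelF4 F _) ≠ rk (xp modelF4 F _) by omega)
    · exact not_conj_of_rk (show rk (xp modelF4 F _) ≠ rk (xp modelF4 F _) by omega)
    · exact not_conj_of_rk (show rk (xp modelF4 F _) ≠ rk (xp modelF4 F _) by omega)
    · exact not_conj_of_rk (show rk (xp modelF4 F _) ≠ rk (xp modelF4 F _) by omega)
    · exact absurd rfl hab
  · intro M
    constructor
    · intro hM
      simp only [List.mem_cons, List.not_mem_nil, or_false] at hM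
      rcases hM with rfl | rfl | rfl | rfl
      · exact ⟨0, (xp_single modelF4 47).symm⟩
      · exact ⟨1, (xp_single modelF4 44).symm⟩
      · exact ⟨2, (xp_pair modelF4 47 44).symm⟩
      · exact ⟨3, (xp_pair modelF4 39 45).symm⟩
    · rintro ⟨a, rfl⟩
      simp only [List.mem_cons, List.not_mem_nil, or_false]
      fin_cases a
      · left; exact xp_single modelF4 47
      · right; left; exact xp_single modelF4 44
      · right; right; left; exact xp_pair modelF4 47 44
      · right; right; right; exact xp_pair modelF4 39 45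

end Cfsg.Agent.H14.Chev
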