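import Mathlib
import Cfsg.Agent.H14_InvD
import Cfsg.Agent.H6_ChevTabG2

set_option autoImplicit false
set_option maxRecDepth 100000

/-! Maximal positions of involutions in characteristic two, type G2 (table and kernel check). -/

namespace Cfsg.Agent.H14.Chev

open Cfsg Cfsg.Lie Cfsg.Agent.H6 Cfsg.Agent.H6.Chev

def invWG2 : List ℕ := [0x121212, 0x21212, 0x12121, 0x0]

def invIG2 : List ℕ := [15, 15, 1, 15]

def invJG2 : List ℕ := [15, 15, 0, 15]

theorem ckInvG2 : tabG2.ckInv 7 invWG2 invIG2 invJG2 [0, 1, 3] = true := by decide +kernel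

end Cfsg.Agent.H14.Chev
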