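import Mathlib
import Cfsg.Agent.H14_InvH
import Cfsg.Agent.H14_InvTabG2

set_option autoImplicit false
set_option maxRecDepth 100000

/-! Classes of involutions in characteristic two, type G2. -/

namespace Cfsg.Agent.H14.Chev

open Cfsg Cfsg.Lie Cfsg.Lie.ChevalleyDatum Cfsg.Agent.H6 Cfsg.Agent.H6.Chev Cfsg.Agent.H6.Chev.Model
open scoped Matrix

def sG2_0 : List (Fin chevG2.rank) := ([1] : List (Fin 2))
def lG2_0 : List (Fin chevG2.rank) := ([0, 1, 0] : List (Fin 2))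

theorem ckRG2_0 : tabG2.ckRep [11] (sG2_0.map Fin.val) (lG2_0.map Fin.val) 5 = true := by decide +kernel

theorem ckOG2_0 : tabG2.ckOrthL [11] = true := by decide +kernel

theorem rkG2_0 {F : Type*} [Field F] [CharP F 2] : 5 ≤ rk (xp modelG2 F [11]) ∧ rk (xp modelG2 F [11]) ≤ 6 :=
  rep_rk modelG2 baseG2 checksG2 sG2_0 lG2_0 ckRG2_0

def sG2_1 : List (Fin chevG2.rank) := ([0] : List (Fin 2))
def lG2_1 : List (Fin chevG2.rank) := ([1, 0, 1] : List (Fin 2))

theorem ckRG2_1 : tabG2.ckRep [9] (sG2_1.map Fin.val) (lG2_1.map Fin.val) 5 = true := by decide +kernel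

theorem ckOG2_1 : tabG2.ckOrthL [9] = true := by decide +kernel

theorem rkG2_1 {F : Type*} [Field F] [CharP F 2] : 5 ≤ rk (xp modelG2 F [9]) ∧ rk (xp modelG2 F [9]) ≤ 6 :=
  rep_rk modelG2 baseG2 checksG2 sG2_1 lG2_1 ckRG2_1


theorem G2_ls {F : Type*} [Field F] : ¬ ∃ g : ↥(chevG2.group F), g * xg1 modelG2 F [11] * g⁻¹ = xg1 modelG2 F [9] := by
  rintro ⟨g, hg⟩
  have h1 := congrArg Subtype.val hg
  have hm : tabG2.ckMask 3171 = true := by decide +kernel
  refine not_conj_ls (F := F) modelG2 (r := ⟨11, by decide⟩) (s := ⟨9, by decide⟩) (centU_last modelG2) (by decide) ?_ g.2 ?_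
  · intro w hw he
    have h2 := mask_eq modelG2 baseG2 checksG2 hm hw ⟨11, by decide⟩
    rw [he] at h2
    exact absurd h2 (by decide +kernel)
  · have e1 : xp modelG2 F [11] = modelG2.X 11 1 := by simp [xp]
    have e2 : xp modelG2 F [9] = modelG2.X 9 1 := by simp [xp]
    have h3 : (g : GL chevG2.Idx F) * xp modelG2 F [11] * (g : GL chevG2.Idx F)⁻¹ = xp modelG2 F [9] := h1
    rw [e1, e2] at h3
    exact h3

noncomputable def TG2 (F : Type*) [Field F] : Fin 2 → ↥(chevG2.group F) :=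
  ![xg1 modelG2 F [11], xg1 modelG2 F [9]]

theorem mainG2 {F : Type*} [Field F] [Fintype F] [CharP F 2] :
    (∀ y : GL chevG2.Idx F, ((y : GL chevG2.Idx F) : Matrix chevG2.Idx chevG2.Idx F) ∈ [chevG2.x F 11 1, chevG2.x F 9 1] → y ∈ chevG2.group F ∧ orderOf y = 2) ∧
    (∀ g ∈ chevG2.group F, orderOf g = 2 → ∃ y ∈ chevG2.group F, ((y : GL chevG2.Idx F) : Matrix chevG2.Idx chevG2.Idx F) ∈ [chevG2.x F 11 1, chevG2.x F 9 1] ∧
      ∃ h ∈ chevG2.group F, h * g * h⁻¹ = y) ∧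
    (∀ y₁ ∈ chevG2.group F, ∀ y₂ ∈ chevG2.group F, ((y₁ : GL chevG2.Idx F) : Matrix chevG2.Idx chevG2.Idx F) ∈ [chevG2.x F 11 1, chevG2.x F 9 1] →
      ((y₂ : GL chevG2.Idx F) : Matrix chevG2.Idx chevG2.Idx F) ∈ [chevG2.x F 11 1, chevG2.x F 9 1] → (∃ h ∈ chevG2.group F, h * y₁ * h⁻¹ = y₂) →
      ((y₁ : GL chevG2.Idx F) : Matrix chevG2.Idx chevG2.Idx F) = ((y₂ : GL chevG2.Idx F) : Matrix chevG2.Idx chevG2.Idx F)) := by
  have hck : tabG2.ckInv 7 invWG2 invIG2 invJG2 ([0, 1] ++ [3]) = true := ckInvG2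
  have hf : Tab.decW 7 (nth invWG2 3) = [] := by decide +kernel
  refine inv_main (F := F) modelG2 baseG2 checksG2 hck hf (TG2 F) ?_ ?_ ?_ _ ?_
  · intro a
    fin_cases a
    · exact xg1_sq modelG2 baseG2 checksG2 ckOG2_0
    · exact xg1_sq modelG2 baseG2 checksG2 ckOG2_1
  · intro a
    fin_cases a
    · exact xg1_ne modelG2 (rkG2_0 (F := F)).1 (by norm_num)
    · exact xg1_ne modelG2 (rkG2_1 (F := F)).1 (by norm_num)
  · intro a b hab
    fin_cases a <;> fin_cases b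
    · exact absurd rfl hab
    · exact G2_ls
    · rintro ⟨g, hg⟩
      refine G2_ls (F := F) ⟨g⁻¹, ?_⟩
      change g * xg1 modelG2 F [9] * g⁻¹ = xg1 modelG2 F [11] at hg
      rw [← hg]; group
    · exact absurd rfl hab
  · intro M
    constructor
    · intro hM
      simp only [List.mem_cons, List.not_mem_nil, or_false] at hM
      rcases hM with rfl | rfl
      · exact ⟨0, (xp_single modelG2 11).symm⟩
      · exact ⟨1, (xp_single modelG2 9).symm⟩
    · rintro ⟨a, rfl⟩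
      simp only [List.mem_cons, List.not_mem_nil, or_false]
      fin_cases a
      · left; exact xp_single modelG2 11
      · right; exact xp_single modelG2 9

end Cfsg.Agent.H14.Chev
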