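import Mathlib
import Cfsg.Agent.H14_Schur

set_option autoImplicit false

/-!
Schur multipliers: elementary abelian Sylow subgroup of order `p ^ 2` with an inverting/centralizing element, and
semidihedral Sylow 2-subgroups of order 16.
-/

namespace Cfsg.Agent.H14.Schur

open Subgroup Cfsg
open scoped Pointwise commutatorElement

universe u v

section

variable {Γ : Type u} {G : Type v} [Group Γ] [Group G] [Finite Γ] (σ : Γ →* G)

omit [Finite Γ] in
theorem eq_mul_ker {σ : Γ →* G} (hc : σ.ker ≤ center Γ) {x y : Γ} (h : σ x = σ y) :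
    ∃ z ∈ center Γ, z ∈ σ.ker ∧ x = y * z := by
  have h1 : y⁻¹ * x ∈ σ.ker := by rw [MonoidHom.mem_ker, map_mul, map_inv, h, inv_mul_cancel]
  exact ⟨y⁻¹ * x, hc h1, h1, by rw [mul_inv_cancel_left]⟩

omit [Finite Γ] in
theorem comm_mul_right {x y z : Γ} (hz : z ∈ center Γ) : ⁅x, y * z⁆ = ⁅x, y⁆ := by
  have h : ∀ g, g * z = z * g := fun g => Subgroup.mem_center_iff.1 hz g
  rw [commutatorElement_def, commutatorElement_def, mul_inv_rev]
  calc x * (y * z) * x⁻¹ * (z⁻¹ * y⁻¹) = x * y * (z * x⁻¹) * (z⁻¹ * y⁻¹) := by group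
    _ = x * y * x⁻¹ * y⁻¹ := by rw [← h]; group

omit [Finite Γ] in
theorem comm_mul_left {x y z : Γ} (hz : z ∈ center Γ) : ⁅x * z, y⁆ = ⁅x, y⁆ := by
  rw [← inv_inj, commutatorElement_inv, commutatorElement_inv, comm_mul_right hz]

theorem false_of_pp (hσ : IsStemExtension σ) {p : ℕ} [hp : Fact p.Prime] (hp2 : p ≠ 2) (hcard : Nat.card σ.ker = p)
    (x y g : G) (hxy : x * y = y * x) (hgx : g * x * g⁻¹ = x⁻¹) (hgy : g * y * g⁻¹ = y)
    (hQ : IsPGroup p (closure ({x, y} : Set G))) (hQi : ¬ p ∣ (closure ({x, y} : Set G)).index) : False := by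
  obtain ⟨hs, hc, hd⟩ := id hσ
  obtain ⟨x', rfl⟩ := hs x
  obtain ⟨y', rfl⟩ := hs y
  obtain ⟨g', rfl⟩ := hs g
  set c := ⁅x', y'⁆ with hcdef
  have hcker : c ∈ σ.ker := by
    rw [MonoidHom.mem_ker, hcdef, map_commutatorElement, commutatorElement_eq_one_iff_mul_comm]
    exact hxy
  have hcc := hc hcker
  obtain ⟨z1, hz1, _, h1⟩ := eq_mul_ker hc (x := g' * x' * g'⁻¹) (y := x'⁻¹) (by
    rw [map_mul, map_mul, map_inv, map_inv, hgx])
  obtain ⟨z2, hz2, _, h2⟩ := eq_mul_ker hc (x := g' * y' * g'⁻¹) (y := y') (by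
    rw [map_mul, map_mul, map_inv, hgy])
  have h3 : g' * c * g'⁻¹ = c := by
    rw [Subgroup.mem_center_iff.1 hcc g', mul_inv_cancel_right]
  have h4 : g' * c * g'⁻¹ = ⁅g' * x' * g'⁻¹, g' * y' * g'⁻¹⁆ := by
    simp only [hcdef, commutatorElement_def]; group
  rw [h1, h2, comm_mul_left hz1, comm_mul_right hz2] at h4
  have h5 : ⁅x'⁻¹, y'⁆ = c⁻¹ := by
    have : ⁅x'⁻¹, y'⁆ = x'⁻¹ * c⁻¹ * x' := by simp only [hcdef, commutatorElement_def]; group
    rw [this, Subgroup.mem_center_iff.1 (inv_mem hcc) x'⁻¹, inv_mul_cancel_right]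
  rw [h5, h3] at h4
  have h6 : c ^ 2 = 1 := by
    rw [pow_two]
    nth_rw 1 [h4]
    rw [inv_mul_cancel]
  have h7 : c ^ p = 1 := by
    have : (⟨c, hcker⟩ : σ.ker) ^ Nat.card σ.ker = 1 := pow_card_eq_one'
    rw [hcard] at this
    exact congrArg Subtype.val this
  have h8 : c = 1 := by
    have h9 : orderOf c ∣ 2 := orderOf_dvd_of_pow_eq_one h6
    have h10 : orderOf c ∣ p := orderOf_dvd_of_pow_eq_one h7
    rcases (Nat.dvd_prime hp.out).1 h10 with h | h
    · exact orderOf_eq_one_iff.1 h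
    · rw [h] at h9
      rcases (Nat.dvd_prime Nat.prime_two).1 h9 with h' | h'
      · exact absurd h' hp.out.one_lt.ne'
      · exact absurd h' hp2
  refine false_of_comm_le σ hσ hcard _ hQ hQi ⊥ ?_ (fun w hw _ => hw)
  rw [comap_eq σ {x', y'} _ (by rw [Set.image_pair])]
  apply commutator_closure_le
  · intro s _ n hn
    rw [Subgroup.mem_bot] at hn
    subst hn
    simp
  · have hcen : ∀ z ∈ (σ.ker : Set Γ), ∀ w : Γ, ⁅w, z⁆ = 1 ∧ ⁅z, w⁆ = 1 := by
      intro z hz w
      have := Subgroup.mem_center_iff.1 (hc hz) w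
      exact ⟨commutatorElement_eq_one_iff_mul_comm.2 this, commutatorElement_eq_one_iff_mul_comm.2 this.symm⟩
    have hyx : ⁅y', x'⁆ = 1 := by rw [← commutatorElement_inv, ← hcdef, h8, inv_one]
    rintro s (hs' | hs') t (ht | ht)
    · rcases hs' with rfl | rfl <;> rcases ht with rfl | rfl
      · rw [commutatorElement_self]; exact one_mem _
      · exact h8
      · exact hyx
      · rw [commutatorElement_self]; exact one_mem _
    · exact (hcen t ht s).1
    · exact (hcen s hs' t).2
    · exact (hcen t ht s).1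

theorem false_of_sd16 (hσ : IsStemExtension σ) (hcard : Nat.card σ.ker = 2)
    (a b : G) (ha : orderOf a = 8) (hb : b * b = 1) (hba : b * a * b⁻¹ = a ^ 3)
    (hQ : IsPGroup 2 (closure ({a, b} : Set G))) (hQi : ¬ 2 ∣ (closure ({a, b} : Set G)).index) : False := by
  obtain ⟨hs, hc, hd⟩ := id hσ
  obtain ⟨a', rfl⟩ := hs a
  obtain ⟨b', rfl⟩ := hs b
  have hsq : ∀ z ∈ σ.ker, z * z = 1 := by
    intro z hz
    have : (⟨z, hz⟩ : σ.ker) ^ Nat.card σ.ker = 1 := pow_card_eq_one'
    rw [hcard, pow_two] at this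
    exact congrArg Subtype.val this
  obtain ⟨z, hz, hzk, h1⟩ := eq_mul_ker hc (x := b' * a' * b'⁻¹) (y := a' ^ 3) (by
    rw [map_mul, map_mul, map_inv, map_pow, hba])
  have hzc : ∀ g, g * z = z * g := fun g => Subgroup.mem_center_iff.1 hz g
  have hzz := hsq z hzk
  have hbb : b' * b' ∈ center Γ := hc (by rw [MonoidHom.mem_ker, map_mul, hb])
  set c := a' * a' * z with hcdef
  -- relations
  have h2 : b' * a' = a' ^ 3 * z * b' := by rw [← h1]; group
  have h3 : b' * c = c ^ 3 * b' := by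
    have e1 : c ^ 3 = a' ^ 6 * z := by
      have : Commute (a' * a') z := hzc _
      rw [hcdef, this.mul_pow]
      have : z ^ 3 = z := by rw [pow_succ, pow_two, hzz, one_mul]
      rw [this]
      congr 1
      rw [← pow_two, ← pow_mul]
    rw [e1, hcdef]
    calc b' * (a' * a' * z) = (b' * a') * a' * z := by group
      _ = (a' ^ 3 * z * b') * a' * z := by rw [h2]
      _ = a' ^ 3 * z * (b' * a') * z := by group
      _ = a' ^ 3 * z * (a' ^ 3 * z * b') * z := by rw [h2]
      _ = a' ^ 3 * (z * a' ^ 3) * (z * (b' * z)) := by group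
      _ = a' ^ 3 * (a' ^ 3 * z) * (z * (z * b')) := by rw [← hzc (a' ^ 3), hzc b']
      _ = a' ^ 6 * z * (z * z) * b' := by group
      _ = a' ^ 6 * z * b' := by rw [hzz, mul_one]
  have hbb' : ∀ g, g * (b' * b') = b' * b' * g := fun g => Subgroup.mem_center_iff.1 hbb g
  have h4 : a' ^ 8 = 1 := by
    have e1 : b' * b' * a' = a' ^ 9 * (b' * b') := by
      have e2 : ∀ n : ℕ, b' * a' ^ n = (a' ^ 3 * z) ^ n * b' := by
        intro n
        induction n with
        | zero => simp
        | succ n ih => rw [pow_succ, ← mul_assoc, ih, mul_assoc, h2, pow_succ (a' ^ 3 * z)]; group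
      have e3 : (a' ^ 3 * z) ^ 3 = a' ^ 9 * z := by
        have : Commute (a' ^ 3) z := hzc _
        rw [this.mul_pow, ← pow_mul]
        have : z ^ 3 = z := by rw [pow_succ, pow_two, hzz, one_mul]
        rw [this]
      calc b' * b' * a' = b' * (b' * a') := by group
        _ = (b' * a' ^ 3) * (z * b') := by rw [h2]; group
        _ = (a' ^ 9 * z) * b' * (z * b') := by rw [e2, e3]
        _ = a' ^ 9 * z * (b' * z) * b' := by group
        _ = a' ^ 9 * (z * z) * (b' * b') := by rw [hzc b']; group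
        _ = a' ^ 9 * (b' * b') := by rw [hzz, mul_one]
    rw [← hbb' a'] at e1
    have e4 := mul_right_cancel e1
    have e5 : a' * 1 = a' * a' ^ 8 := by
      rw [mul_one, ← pow_succ']
      exact e4
    exact (mul_left_cancel e5).symm
  have h5 : c ^ 4 = 1 := by
    have : Commute (a' * a') z := hzc _
    rw [hcdef, this.mul_pow, ← pow_two, ← pow_mul, h4]
    have : z ^ 4 = 1 := by
      rw [show (4 : ℕ) = 2 * 2 from rfl, pow_mul, pow_two z, hzz, one_pow]
    rw [this, one_mul]
  have hca : c * a' = a' * c := by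
    rw [hcdef, mul_assoc, ← hzc a']; group
  -- the subgroup generated by c
  refine false_of_comm_le σ hσ hcard _ hQ hQi (zpowers c) ?_ ?_
  · rw [comap_eq σ {a', b'} _ (by rw [Set.image_pair])]
    have hcen : ∀ z ∈ (σ.ker : Set Γ), ∀ w : Γ, ⁅w, z⁆ = 1 ∧ ⁅z, w⁆ = 1 := by
      intro z hz w
      have := Subgroup.mem_center_iff.1 (hc hz) w
      exact ⟨commutatorElement_eq_one_iff_mul_comm.2 this, commutatorElement_eq_one_iff_mul_comm.2 this.symm⟩
    have hba' : ⁅b', a'⁆ = c := by
      rw [commutatorElement_def, h2, hcdef]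
      calc a' ^ 3 * z * b' * b'⁻¹ * a'⁻¹ = a' ^ 3 * (z * a'⁻¹) := by group
        _ = a' ^ 2 * z := by rw [← hzc a'⁻¹]; group
        _ = a' * a' * z := by rw [pow_two]
    apply commutator_closure_le
    · rintro s (hs' | hs') n hn
      · obtain ⟨k, rfl⟩ := hn
        have conj_zpow' : ∀ g : Γ, ∀ m : ℤ, g * c * g⁻¹ = c ^ m → g * c ^ k * g⁻¹ ∈ zpowers c := by
          intro g m hg
          rw [← conj_zpow, hg, ← zpow_mul]
          exact zpow_mem (mem_zpowers c) _
        rcases hs' with rfl | rfl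
        · constructor
          · exact conj_zpow' s 1 (by rw [← hca, mul_inv_cancel_right, zpow_one])
          · have := conj_zpow' s⁻¹ 1 (by rw [inv_inv, mul_assoc, hca, inv_mul_cancel_left, zpow_one])
            rwa [inv_inv] at this
        · constructor
          · exact conj_zpow' s 3 (by rw [h3, mul_inv_cancel_right]; exact (zpow_natCast c 3).symm)
          · have e1 : s⁻¹ * c * s⁻¹⁻¹ = c ^ (3 : ℤ) := by
              -- c = s⁻¹ c^3 s, so s⁻¹ c s = (s⁻¹ c^3 s)^3 = c^9... use c^4 = 1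
              have e2 : s⁻¹ * c ^ 3 * s = c := by rw [mul_assoc, ← h3, inv_mul_cancel_left]
              have e3 : (s⁻¹ * c ^ 3 * s) ^ 3 = s⁻¹ * c ^ 9 * s := by
                have := conj_pow (i := 3) (a := s⁻¹) (b := c ^ 3)
                rw [inv_inv] at this
                rw [this, ← pow_mul]
              rw [e2] at e3
              have e4 : c ^ 9 = c := by
                calc c ^ 9 = (c ^ 4) ^ 2 * c := by group
                  _ = c := by rw [h5, one_pow, one_mul]
              rw [e4] at e3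
              rw [inv_inv, ← e3]; exact (zpow_natCast c 3).symm
            have := conj_zpow' s⁻¹ 3 e1
            rwa [inv_inv] at this
      · have h9 := Subgroup.mem_center_iff.1 (hc hs')
        constructor
        · rw [← h9 n, mul_inv_cancel_right]; exact hn
        · rw [mul_assoc, h9 n, inv_mul_cancel_left]; exact hn
    · rintro s (hs' | hs') t (ht | ht)
      · rcases hs' with rfl | rfl <;> rcases ht with rfl | rfl
        · rw [commutatorElement_self]; exact one_mem _
        · rw [← commutatorElement_inv, hba']; exact inv_mem (mem_zpowers c)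
        · rw [hba']; exact mem_zpowers c
        · rw [commutatorElement_self]; exact one_mem _
      · rw [(hcen t ht s).1]; exact one_mem _
      · rw [(hcen s hs' t).2]; exact one_mem _
      · rw [(hcen t ht s).1]; exact one_mem _
  · rintro _ ⟨k, rfl⟩ hk
    have h6 : σ (c ^ k) = (σ a') ^ (2 * k) := by
      rw [map_zpow, hcdef, map_mul, map_mul, (MonoidHom.mem_ker).1 hzk, mul_one, ← pow_two, ← zpow_natCast,
        ← zpow_mul]
      rfl
    have h7 : (σ a') ^ (2 * k) = 1 := by rw [← h6]; exact hk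
    rw [← orderOf_dvd_iff_zpow_eq_one, ha] at h7
    obtain ⟨m, hm⟩ := h7
    have h8 : k = 4 * m := by push_cast at hm; omega
    change c ^ k = 1
    rw [h8, zpow_mul]
    have : c ^ (4 : ℤ) = 1 := by rw [show (4 : ℤ) = ((4 : ℕ) : ℤ) from rfl, zpow_natCast, h5]
    rw [this, one_zpow]

end

end Cfsg.Agent.H14.Schur
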