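import Mathlib
import Cfsg.Agent.H14_Schur2

set_option autoImplicit false
set_option linter.all false

/-!
Schur multipliers from covers with trivial multiplier; cyclic and quaternion Sylow subgroups.
-/

namespace Cfsg.Agent.H14.Pm

open Subgroup Cfsg Cfsg.Agent.H14.Schur
open scoped Pointwise commutatorElement

universe u v w

/-- a perfect group covered by a central extension with trivial kernel issues: `D = [E,E]` is perfect when `E = D Z` -/
theorem comm_le_of_mul_center {E : Type*} [Group E] (D : Subgroup E) (h : ∀ x : E, ∃ d ∈ D, ∃ z ∈ center E, x = d * z) :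
    commutator E ≤ ⁅D, D⁆ := by
  rw [commutator_def, Subgroup.commutator_le]
  intro x _ y _
  obtain ⟨d, hd, z, hz, rfl⟩ := h x
  obtain ⟨d', hd', z', hz', rfl⟩ := h y
  rw [comm_mul_left hz, comm_mul_right hz']
  exact Subgroup.commutator_mem_commutator hd hd'

theorem exists_section {Gt : Type u} {G : Type v} [Group Gt] [Finite Gt] [Group G] (π : Gt →* G) (hs : Function.Surjective π)
    (hp : commutator Gt = ⊤) (hM : HasCyclicSchurMultiplier Gt 1)
    (Γ : Type u) [Group Γ] [Finite Γ] (σ : Γ →* G) (hσs : Function.Surjective σ) (hσc : σ.ker ≤ center Γ) :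
    ∃ s : Gt →* Γ, ∀ x, σ (s x) = π x := by
  let E : Subgroup (Γ × Gt) :=
    { carrier := {x | σ x.1 = π x.2}
      mul_mem' := fun {a b} ha hb => by
        show σ (a.1 * b.1) = π (a.2 * b.2)
        rw [map_mul, map_mul, show σ a.1 = π a.2 from ha, show σ b.1 = π b.2 from hb]
      one_mem' := by
        show σ 1 = π 1
        rw [map_one, map_one]
      inv_mem' := fun {a} ha => by
        show σ a.1⁻¹ = π a.2⁻¹
        rw [map_inv, map_inv, show σ a.1 = π a.2 from ha] }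
  let p2 : E →* Gt := (MonoidHom.snd Γ Gt).comp E.subtype
  let p1 : E →* Γ := (MonoidHom.fst Γ Gt).comp E.subtype
  have hp2s : Function.Surjective p2 := by
    intro g
    obtain ⟨γ, hγ⟩ := hσs (π g)
    exact ⟨⟨(γ, g), hγ⟩, rfl⟩
  have hp12 : ∀ x : E, σ (p1 x) = π (p2 x) := fun x => x.2
  have hker : ∀ x : E, p2 x = 1 → x ∈ center E := by
    intro x hx
    have h1 : p1 x ∈ center Γ := hσc (by rw [MonoidHom.mem_ker, hp12, hx, map_one])
    rw [mem_center_iff] at h1 ⊢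
    intro y
    apply Subtype.ext
    apply Prod.ext
    · exact h1 (p1 y)
    · show p2 y * p2 x = p2 x * p2 y
      rw [hx, mul_one, one_mul]
  let D : Subgroup E := commutator E
  have hDmap : D.map p2 = ⊤ := by
    show (commutator E).map p2 = ⊤
    rw [commutator_def, Subgroup.map_commutator, ← MonoidHom.range_eq_map, MonoidHom.range_eq_top.2 hp2s, ← commutator_def, hp]
  have hED : ∀ x : E, ∃ d ∈ D, ∃ z ∈ center E, x = d * z := by
    intro x
    have : p2 x ∈ D.map p2 := by rw [hDmap]; trivial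
    obtain ⟨d, hd, hdx⟩ := this
    refine ⟨d, hd, d⁻¹ * x, hker _ (by rw [map_mul, map_inv, hdx, inv_mul_cancel]), by group⟩
  have hDD : D ≤ ⁅D, D⁆ := comm_le_of_mul_center D hED
  let τ : D →* Gt := p2.comp D.subtype
  have hτs : Function.Surjective τ := by
    intro g
    have : g ∈ D.map p2 := by rw [hDmap]; trivial
    obtain ⟨d, hd, hdx⟩ := this
    exact ⟨⟨d, hd⟩, hdx⟩
  have hτ : IsStemExtension τ := by
    refine ⟨hτs, ?_, ?_⟩
    · intro x hx
      have h1 := hker x.1 hx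
      rw [mem_center_iff] at h1 ⊢
      intro y
      exact Subtype.ext (h1 y.1)
    · have : commutator D = ⊤ := by
        rw [eq_top_iff]
        rintro ⟨x, hx⟩ _
        have h1 := hDD hx
        have h2 : (commutator D).map D.subtype = ⁅D, D⁆ := by
          rw [commutator_def, Subgroup.map_commutator, ← MonoidHom.range_eq_map, Subgroup.range_subtype]
        rw [← h2] at h1
        obtain ⟨y, hy, hyx⟩ := h1
        have : y = ⟨x, hx⟩ := Subtype.ext hyx
        rw [← this]; exact hy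
      rw [this]; exact le_top
  obtain ⟨f, hf⟩ := hM.2 D τ hτ
  have hτi : Function.Injective τ := by
    rw [← MonoidHom.ker_eq_bot_iff, eq_bot_iff]
    intro x hx
    obtain ⟨a, ha⟩ := hf ⟨x, hx⟩
    have ha1 : a = 1 := Subsingleton.elim (α := Multiplicative (ZMod 1)) _ _
    rw [ha1, map_one] at ha
    exact Subgroup.mem_bot.2 (congrArg Subtype.val ha).symm
  let e : D ≃* Gt := MulEquiv.ofBijective τ ⟨hτi, hτs⟩
  refine ⟨(p1.comp D.subtype).comp e.symm.toMonoidHom, fun x => ?_⟩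
  show σ (p1 (e.symm x).1) = π x
  rw [hp12]
  exact congrArg π (e.apply_symm_apply x)

theorem surj_of_perfect {Gt : Type u} {G : Type v} {Γ : Type w} [Group Gt] [Group G] [Group Γ] (π : Gt →* G) (hs : Function.Surjective π)
    (hp : commutator G = ⊤) (σ : Γ →* G) (hσ : IsStemExtension σ) (s : Gt →* Γ) (h : ∀ x, σ (s x) = π x) : Function.Surjective s := by
  have hΓ := perfect_of_stem σ hσ hp
  rw [← MonoidHom.range_eq_top, eq_top_iff, ← hΓ]
  refine (comm_le_of_mul_center s.range (fun x => ?_)).trans (Subgroup.commutator_le.2 fun x hx y hy => by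
    rw [commutatorElement_def]; exact mul_mem (mul_mem (mul_mem hx hy) (inv_mem hx)) (inv_mem hy))
  · obtain ⟨y, hy⟩ := hs (σ x)
    refine ⟨s y, ⟨y, rfl⟩, (s y)⁻¹ * x, hσ.2.1 ?_, by group⟩
    rw [MonoidHom.mem_ker, map_mul, map_inv, h, hy, inv_mul_cancel]

theorem mult_of_cover {Gt G : Type u} [Group Gt] [Finite Gt] [Group G] (π : Gt →* G) (hs : Function.Surjective π)
    (hc : π.ker ≤ center Gt) (hp : commutator Gt = ⊤) (hM : HasCyclicSchurMultiplier Gt 1) {A : Type v} [CommGroup A] (e : π.ker ≃* A) :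
    HasSchurMultiplier G A := by
  have hpG : commutator G = ⊤ := by
    have h1 : (commutator Gt).map π = commutator G := by
      rw [commutator_def, Subgroup.map_commutator, ← MonoidHom.range_eq_map, MonoidHom.range_eq_top.2 hs, ← commutator_def]
    rw [← h1, hp, ← MonoidHom.range_eq_map, MonoidHom.range_eq_top.2 hs]
  refine ⟨⟨Gt, inferInstance, inferInstance, π, ⟨hs, hc, by rw [hp]; exact le_top⟩, ⟨e⟩⟩, ?_⟩
  intro Γ _ _ σ hσ
  obtain ⟨s, hs'⟩ := exists_section π hs hp hM Γ σ hσ.1 hσ.2.1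
  have hsurj := surj_of_perfect π hs hpG σ hσ s hs'
  let f : π.ker →* σ.ker := (s.comp π.ker.subtype).codRestrict σ.ker (fun x => by
    rw [MonoidHom.mem_ker]
    show σ (s x.1) = 1
    rw [hs']; exact x.2)
  refine ⟨f.comp e.symm.toMonoidHom, ?_⟩
  rintro ⟨y, hy⟩
  obtain ⟨x, rfl⟩ := hsurj y
  have hx : x ∈ π.ker := by
    rw [MonoidHom.mem_ker, ← hs']; exact hy
  refine ⟨e ⟨x, hx⟩, ?_⟩
  apply Subtype.ext
  show s (e.symm (e ⟨x, hx⟩)).1 = s x
  rw [MulEquiv.symm_apply_apply]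

section sylow

variable {Γ : Type u} {G : Type v} [Group Γ] [Group G] [Finite Γ] (σ : Γ →* G)

theorem false_of_cyclic (hσ : IsStemExtension σ) {p : ℕ} [hp : Fact p.Prime] (hcard : Nat.card σ.ker = p)
    (Q : Subgroup G) (hQ : IsPGroup p Q) (hQi : ¬ p ∣ Q.index) (hcyc : IsCyclic Q) : False := by
  refine false_of_comm_le σ hσ hcard Q hQ hQi ⊥ ?_ (fun x hx _ => Subgroup.mem_bot.1 hx)
  rw [Subgroup.commutator_le]
  intro x hx y hy
  rw [Subgroup.mem_bot, commutatorElement_eq_one_iff_mul_comm]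
  let f : Q.comap σ →* Q := (σ.comp (Q.comap σ).subtype).codRestrict Q (fun x => x.2)
  have hf : f.ker ≤ center (Q.comap σ) := by
    intro z hz
    have h1 : z.1 ∈ center Γ := hσ.2.1 (by
      have := congrArg Subtype.val (MonoidHom.mem_ker.1 hz)
      exact this)
    rw [mem_center_iff] at h1 ⊢
    intro w
    exact Subtype.ext (h1 w.1)
  have := commutative_of_cyclic_center_quotient f hf ⟨x, hx⟩ ⟨y, hy⟩
  exact congrArg Subtype.val this

theorem false_of_quat (hσ : IsStemExtension σ) (hcard : Nat.card σ.ker = 2)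
    (Q : Subgroup G) (hQ : IsPGroup 2 Q) (hQi : ¬ 2 ∣ Q.index) {m : ℕ} (hm : 1 ≤ m) (a b : G) (hab : Q = closure {a, b})
    (hba : b * a * b⁻¹ = a⁻¹) (hbb : b * b = a ^ m) (ha : orderOf a = 2 * m) : False := by
  obtain ⟨A, rfl⟩ := hσ.1 a
  obtain ⟨B, rfl⟩ := hσ.1 b
  have hcc := hσ.2.1
  -- B A B⁻¹ = A⁻¹ z
  obtain ⟨z, hz, _, h1⟩ := eq_mul_ker hcc (x := B * A * B⁻¹) (y := A⁻¹) (by rw [map_mul, map_mul, map_inv, map_inv, hba])
  obtain ⟨w', hw, _, h2⟩ := eq_mul_ker hcc (x := B * B) (y := A ^ m) (by rw [map_mul, map_pow, hbb])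
  rw [mem_center_iff] at hz hw
  have hC : ⁅B, A⁆ = A⁻¹ * A⁻¹ * z := by
    rw [commutatorElement_def, h1, mul_assoc, ← hz A⁻¹, mul_assoc]
  have hCA : Commute ⁅B, A⁆ A := by
    rw [hC]
    have c1 : Commute A⁻¹ A := (Commute.refl A).inv_left
    have c2 : Commute z A := (hz A).symm
    exact (c1.mul_left c1).mul_left c2
  have hBC : B * ⁅B, A⁆ * B⁻¹ = ⁅B, A⁆⁻¹ := by
    rw [hC]
    have e1 : B * (A⁻¹ * A⁻¹ * z) * B⁻¹ = (B * A * B⁻¹)⁻¹ * (B * A * B⁻¹)⁻¹ * z := by
      have : B * z = z * B := hz B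
      calc B * (A⁻¹ * A⁻¹ * z) * B⁻¹ = B * A⁻¹ * A⁻¹ * (z * B⁻¹) := by group
        _ = B * A⁻¹ * A⁻¹ * (B⁻¹ * z) := by rw [hz B⁻¹]
        _ = _ := by group
    rw [e1, h1]
    have e2 : A⁻¹ * z = z * A⁻¹ := hz A⁻¹
    have e3 : A * z⁻¹ = z⁻¹ * A := by
      have := hz A
      rw [mul_inv_eq_iff_eq_mul, mul_assoc, this, inv_mul_cancel_left]
    calc (A⁻¹ * z)⁻¹ * (A⁻¹ * z)⁻¹ * z = z⁻¹ * A * (z⁻¹ * A) * z := by rw [mul_inv_rev, inv_inv]
      _ = z⁻¹ * A * (A * z⁻¹) * z := by rw [e3]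
      _ = z⁻¹ * A * A := by rw [← mul_assoc, inv_mul_cancel_right]
      _ = (A⁻¹ * A⁻¹ * z)⁻¹ := by rw [mul_inv_rev, mul_inv_rev, inv_inv, mul_assoc]
  have hCm : ⁅B, A⁆ ^ m = 1 := by
    have e1 : B * A ^ m * B⁻¹ = A ^ m := by
      have e2 : A ^ m = B * B * w'⁻¹ := by rw [h2]; group
      have e3 : B * w'⁻¹ = w'⁻¹ * B := by
        rw [mul_inv_eq_iff_eq_mul, mul_assoc, hw B, inv_mul_cancel_left]
      rw [e2]
      calc B * (B * B * w'⁻¹) * B⁻¹ = B * B * (B * w'⁻¹) * B⁻¹ := by group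
        _ = B * B * (w'⁻¹ * B) * B⁻¹ := by rw [e3]
        _ = _ := by group
    have e4 : B * A ^ m * B⁻¹ = (⁅B, A⁆ * A) ^ m := by
      rw [← conj_pow]
      congr 1
      rw [commutatorElement_def]; group
    rw [e4, hCA.mul_pow] at e1
    exact mul_eq_right.1 e1
  refine false_of_comm_le σ hσ hcard Q hQ hQi (zpowers ⁅B, A⁆) ?_ ?_
  · have hcl : Q.comap σ = closure ({A, B} ∪ σ.ker) := comap_eq σ {A, B} Q (by rw [hab, Set.image_pair])
    rw [hcl]
    have cen : ∀ s ∈ σ.ker, ∀ n : Γ, s * n * s⁻¹ = n := by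
      intro s hs n
      have := mem_center_iff.1 (hcc hs) n
      rw [← this]; group
    have nB : ∀ n ∈ zpowers ⁅B, A⁆, B * n * B⁻¹ ∈ zpowers ⁅B, A⁆ ∧ B⁻¹ * n * B ∈ zpowers ⁅B, A⁆ := by
      rintro _ ⟨k, rfl⟩
      have e1 : B * ⁅B, A⁆ ^ k * B⁻¹ = ⁅B, A⁆ ^ (-k) := by
        rw [← conj_zpow, hBC, inv_zpow, zpow_neg]
      have e2 : B⁻¹ * ⁅B, A⁆ ^ k * B = ⁅B, A⁆ ^ (-k) := by
        have e3 : B * ⁅B, A⁆ ^ (-k) * B⁻¹ = ⁅B, A⁆ ^ k := by
          rw [← conj_zpow, hBC, inv_zpow, zpow_neg, inv_inv]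
        rw [← e3]; group
      exact ⟨by show B * ⁅B, A⁆ ^ k * B⁻¹ ∈ _; rw [e1]; exact zpow_mem (mem_zpowers _) _, by
        show B⁻¹ * ⁅B, A⁆ ^ k * B ∈ _; rw [e2]; exact zpow_mem (mem_zpowers _) _⟩
    have nA : ∀ n ∈ zpowers ⁅B, A⁆, A * n * A⁻¹ ∈ zpowers ⁅B, A⁆ ∧ A⁻¹ * n * A ∈ zpowers ⁅B, A⁆ := by
      rintro _ ⟨k, rfl⟩
      have c : Commute (⁅B, A⁆ ^ k) A := hCA.zpow_left k
      have e1 : A * ⁅B, A⁆ ^ k * A⁻¹ = ⁅B, A⁆ ^ k := by rw [← c.eq, mul_inv_cancel_right]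
      have e2 : A⁻¹ * ⁅B, A⁆ ^ k * A = ⁅B, A⁆ ^ k := by rw [mul_assoc, c.eq, inv_mul_cancel_left]
      exact ⟨by show A * ⁅B, A⁆ ^ k * A⁻¹ ∈ _; rw [e1]; exact zpow_mem (mem_zpowers _) _, by
        show A⁻¹ * ⁅B, A⁆ ^ k * A ∈ _; rw [e2]; exact zpow_mem (mem_zpowers _) _⟩
    apply commutator_closure_le
    · rintro s (hs | hs) n hn
      · rcases hs with rfl | hs
        · exact nA n hn
        · rw [Set.mem_singleton_iff] at hs; subst hs; exact nB n hn
      · rw [cen s hs n]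
        have := cen s⁻¹ (inv_mem hs) n
        rw [inv_inv] at this
        rw [this]; exact ⟨hn, hn⟩
    · have ker1 : ∀ s ∈ σ.ker, ∀ t : Γ, ⁅s, t⁆ = 1 ∧ ⁅t, s⁆ = 1 := by
        intro s hs t
        have := mem_center_iff.1 (hcc hs) t
        exact ⟨commutatorElement_eq_one_iff_mul_comm.2 this.symm, commutatorElement_eq_one_iff_mul_comm.2 this⟩
      rintro s (hs | hs) t (ht | ht)
      · rcases hs with rfl | hs <;> rcases ht with rfl | ht
        · rw [commutatorElement_self]; exact one_mem _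
        · rw [Set.mem_singleton_iff] at ht; subst ht
          have := inv_mem (mem_zpowers ⁅t, s⁆)
          rwa [commutatorElement_inv] at this
        · rw [Set.mem_singleton_iff] at hs; subst hs
          exact mem_zpowers _
        · rw [Set.mem_singleton_iff] at hs ht; subst hs; subst ht
          rw [commutatorElement_self]; exact one_mem _
      · rw [(ker1 t ht s).2]; exact one_mem _
      · rw [(ker1 s hs t).1]; exact one_mem _
      · rw [(ker1 s hs t).1]; exact one_mem _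
  · rintro _ ⟨k, rfl⟩ hk
    have hk' : σ (⁅B, A⁆ ^ k) = 1 := hk
    show ⁅B, A⁆ ^ k = 1
    have e1 : σ ⁅B, A⁆ = (σ A)⁻¹ * (σ A)⁻¹ := by
      rw [commutatorElement_def, map_mul, map_mul, map_mul, map_inv, map_inv, hba]
    have e2 : (σ A) ^ (-(2 * k)) = 1 := by
      rw [map_zpow, e1, ← pow_two, ← zpow_natCast, ← zpow_mul, inv_zpow] at hk'
      rw [zpow_neg]
      exact_mod_cast hk'
    have e3 := orderOf_dvd_iff_zpow_eq_one.2 e2
    rw [ha] at e3
    have e4 : (m : ℤ) ∣ k := by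
      rw [dvd_neg] at e3
      push_cast at e3
      exact Int.dvd_of_mul_dvd_mul_left (by norm_num) e3
    obtain ⟨j, rfl⟩ := e4
    rw [zpow_mul, zpow_natCast, hCm, one_zpow]

end sylow

end Cfsg.Agent.H14.Pm
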