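import Mathlib
import Cfsg.Agent.H14_PmA
import Cfsg.Agent.H13_SL
import Cfsg.Agent.S0261
import Cfsg.Agent.S0262

set_option autoImplicit false
set_option linter.all false

/-!
Commutators in central extensions; the Schur multiplier of `SL₂`.
-/

namespace Cfsg.Agent.H14.Pm

open Subgroup Cfsg Cfsg.Agent.H14.Schur
open scoped Pointwise commutatorElement

universe u v w

section kap

variable {Γ : Type u} {G : Type v} [Group Γ] [Group G] (σ : Γ →* G) (hs : Function.Surjective σ) (hc : σ.ker ≤ center Γ)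

/-- commutator of lifts -/
noncomputable def kap (hs : Function.Surjective σ) (u v : G) : Γ := ⁅Function.surjInv hs u, Function.surjInv hs v⁆

theorem σ_kap (u v : G) : σ (kap σ hs u v) = ⁅u, v⁆ := by
  unfold kap
  rw [map_commutatorElement, Function.surjInv_eq hs, Function.surjInv_eq hs]

include hc

theorem kap_eq' {U V : Γ} {u v : G} (hu : σ U = u) (hv : σ V = v) : ⁅U, V⁆ = kap σ hs u v := by
  unfold kap
  obtain ⟨z, hz, _, h1⟩ := eq_mul_ker hc (x := U) (y := Function.surjInv hs u) (by rw [Function.surjInv_eq hs, hu])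
  obtain ⟨z', hz', _, h2⟩ := eq_mul_ker hc (x := V) (y := Function.surjInv hs v) (by rw [Function.surjInv_eq hs, hv])
  rw [h1, h2, comm_mul_left hz, comm_mul_right hz']

theorem kap_comm {u v : G} (h : kap σ hs u v = 1) {U V : Γ} (hu : σ U = u) (hv : σ V = v) : Commute U V := by
  rw [← kap_eq' σ hs hc hu hv, commutatorElement_eq_one_iff_mul_comm] at h
  exact h

theorem kap_cen {u v : G} (h : Commute u v) : kap σ hs u v ∈ center Γ := by
  apply hc
  rw [MonoidHom.mem_ker, σ_kap, commutatorElement_eq_one_iff_mul_comm]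
  exact h.eq

theorem kap_cen' {u v : G} (h : Commute u v) (x : Γ) : Commute (kap σ hs u v) x := (mem_center_iff.1 (kap_cen σ hs hc h) x).symm

theorem kap_conj (g : Γ) (u v : G) : g * kap σ hs u v * g⁻¹ = kap σ hs (σ g * u * (σ g)⁻¹) (σ g * v * (σ g)⁻¹) := by
  rw [← kap_eq' σ hs hc (U := g * Function.surjInv hs u * g⁻¹) (V := g * Function.surjInv hs v * g⁻¹)
    (u := σ g * u * (σ g)⁻¹) (v := σ g * v * (σ g)⁻¹) (by rw [map_mul, map_mul, map_inv, Function.surjInv_eq hs]) (by rw [map_mul, map_mul, map_inv, Function.surjInv_eq hs])]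
  rw [show kap σ hs u v = ⁅Function.surjInv hs u, Function.surjInv hs v⁆ from rfl, commutatorElement_def, commutatorElement_def]
  group

theorem kap_conj_of {g : Γ} {a u v u' v' : G} (hg : σ g = a) (hu : a * u * a⁻¹ = u') (hv : a * v * a⁻¹ = v') :
    g * kap σ hs u v * g⁻¹ = kap σ hs u' v' := by
  rw [kap_conj σ hs hc, hg, hu, hv]

/-- invariance when the commutator is central -/
theorem kap_inv_of {a u v u' v' : G} (h : Commute u v) (hu : a * u * a⁻¹ = u') (hv : a * v * a⁻¹ = v') :
    kap σ hs u' v' = kap σ hs u v := by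
  obtain ⟨g, hg⟩ := hs a
  rw [← kap_conj_of σ hs hc hg hu hv, ← (kap_cen' σ hs hc h g).eq, mul_inv_cancel_right]

theorem kap_swap (u v : G) : kap σ hs v u = (kap σ hs u v)⁻¹ := by
  unfold kap
  rw [commutatorElement_inv]

theorem kap_self (u : G) : kap σ hs u u = 1 := by
  unfold kap
  rw [commutatorElement_self]

theorem kap_mul_left (u u' v : G) {U : Γ} (hU : σ U = u) : kap σ hs (u * u') v = U * kap σ hs u' v * U⁻¹ * kap σ hs u v := by
  obtain ⟨U', hU'⟩ := hs u'
  obtain ⟨V, hV⟩ := hs v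
  rw [← kap_eq' σ hs hc (U := U * U') (V := V) (by rw [map_mul, hU, hU']) hV, ← kap_eq' σ hs hc hU' hV, ← kap_eq' σ hs hc hU hV,
    commutatorElement_def, commutatorElement_def, commutatorElement_def]
  group

theorem kap_mul_right (u v v' : G) {V : Γ} (hV : σ V = v) : kap σ hs u (v * v') = kap σ hs u v * (V * kap σ hs u v' * V⁻¹) := by
  obtain ⟨V', hV'⟩ := hs v'
  obtain ⟨U, hU⟩ := hs u
  rw [← kap_eq' σ hs hc (U := U) (V := V * V') hU (by rw [map_mul, hV, hV']), ← kap_eq' σ hs hc hU hV', ← kap_eq' σ hs hc hU hV,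
    commutatorElement_def, commutatorElement_def, commutatorElement_def]
  group

theorem kap_mul_left_c {u u' v : G} (h : Commute u' v) : kap σ hs (u * u') v = kap σ hs u v * kap σ hs u' v := by
  obtain ⟨U, hU⟩ := hs u
  rw [kap_mul_left σ hs hc u u' v hU, ← (kap_cen' σ hs hc h U).eq, mul_inv_cancel_right, (kap_cen' σ hs hc h _).eq]

theorem kap_mul_right_c {u v v' : G} (h : Commute u v') : kap σ hs u (v * v') = kap σ hs u v * kap σ hs u v' := by
  obtain ⟨V, hV⟩ := hs v
  rw [kap_mul_right σ hs hc u v v' hV, ← (kap_cen' σ hs hc h V).eq, mul_inv_cancel_right]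

end kap

/-! biadditive maps to a group which are invariant under many squares -/

theorem bil_one {F : Type*} [Field F] {Γ : Type*} [Group Γ] (b : F → F → Γ)
    (hr : ∀ s t t', b s (t + t') = b s t * b s t') (hl : ∀ s s' t, b (s + s') t = b s t * b s' t) {a c : F} (ha : a ≠ 0) (hc : c ≠ 0)
    (hac : a * a + c * c = 1) (hne : (a * c) * (a * c) ≠ 1) (hinv : ∀ d, d ≠ 0 → ∀ s t, b (d * d * s) (d * d * t) = b s t) :
    ∀ s t, b s t = 1 := by
  have h1 : ∀ d, d ≠ 0 → ∀ s t, b (d * d * s) t = b s ((d * d)⁻¹ * t) := by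
    intro d hd s t
    have := hinv d hd s ((d * d)⁻¹ * t)
    rwa [mul_inv_cancel_left₀ (mul_ne_zero hd hd)] at this
  have h2 : ∀ s t, b s t = b s (((a * c) * (a * c))⁻¹ * t) := by
    intro s t
    have e1 : s = a * a * s + c * c * s := by rw [← add_mul, hac, one_mul]
    conv_lhs => rw [e1]
    rw [hl, h1 a ha, h1 c hc, ← hr]
    congr 1
    rw [← add_mul]
    congr 1
    field_simp
    linear_combination hac
  intro s t
  set κ := ((a * c) * (a * c))⁻¹ with hκ
  have hκ1 : 1 - κ ≠ 0 := by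
    intro h
    apply hne
    have : κ = 1 := (sub_eq_zero.1 h).symm
    rw [hκ] at this
    exact inv_eq_one.1 this
  have h3 : ∀ r, b s ((1 - κ) * r) = 1 := by
    intro r
    have e1 : r = (1 - κ) * r + κ * r := by ring
    have e2 := hr s ((1 - κ) * r) (κ * r)
    rw [← e1, ← h2 s r] at e2
    exact mul_eq_right.1 e2.symm
  have e3 := h3 ((1 - κ)⁻¹ * t)
  rwa [mul_inv_cancel_left₀ hκ1] at e3

open Polynomial in
theorem exists_ac_odd {F : Type*} [Field F] [Finite F] (h2 : (2 : F) ≠ 0) (hq : 13 < Nat.card F) :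
    ∃ a c : F, a ≠ 0 ∧ c ≠ 0 ∧ a * a + c * c = 1 ∧ (a * c) * (a * c) ≠ 1 := by
  classical
  haveI := Fintype.ofFinite F
  let P1 : F[X] := X
  let P2 : F[X] := 1 - X ^ 2
  let P3 : F[X] := X ^ 2 + 1
  let P4 : F[X] := (1 + X ^ 2) ^ 2 - 2 * X * (1 - X ^ 2)
  let P5 : F[X] := (1 + X ^ 2) ^ 2 + 2 * X * (1 - X ^ 2)
  have d1 : P1.natDegree = 1 := natDegree_X
  have d2 : P2.natDegree = 2 := by show (1 - X ^ 2 : F[X]).natDegree = 2; compute_degree!
  have d3 : P3.natDegree = 2 := by show (X ^ 2 + 1 : F[X]).natDegree = 2; compute_degree!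
  have d4 : P4.natDegree = 4 := by
    have : P4 = X ^ 4 + C 2 * X ^ 3 + C 2 * X ^ 2 - C 2 * X + 1 := by
      show (1 + X ^ 2) ^ 2 - 2 * X * (1 - X ^ 2) = _
      rw [show (C 2 : F[X]) = 2 from rfl]; ring
    rw [this]; compute_degree!
  have d5 : P5.natDegree = 4 := by
    have : P5 = X ^ 4 - C 2 * X ^ 3 + C 2 * X ^ 2 + C 2 * X + 1 := by
      show (1 + X ^ 2) ^ 2 + 2 * X * (1 - X ^ 2) = _
      rw [show (C 2 : F[X]) = 2 from rfl]; ring
    rw [this]; compute_degree!
  have n0 : ∀ {P : F[X]} {k : ℕ}, P.natDegree = k → k ≠ 0 → P ≠ 0 := by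
    intro P k h hk h0
    rw [h0, natDegree_zero] at h
    exact hk h.symm
  have hP0 : P1 * P2 * P3 * P4 * P5 ≠ 0 :=
    mul_ne_zero (mul_ne_zero (mul_ne_zero (mul_ne_zero (n0 d1 (by norm_num)) (n0 d2 (by norm_num))) (n0 d3 (by norm_num))) (n0 d4 (by norm_num))) (n0 d5 (by norm_num))
  have hdeg : (P1 * P2 * P3 * P4 * P5).natDegree ≤ 13 := by
    calc _ ≤ P1.natDegree + P2.natDegree + P3.natDegree + P4.natDegree + P5.natDegree := by
            refine natDegree_mul_le.trans (Nat.add_le_add_right ?_ _)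
            refine natDegree_mul_le.trans (Nat.add_le_add_right ?_ _)
            refine natDegree_mul_le.trans (Nat.add_le_add_right ?_ _)
            exact natDegree_mul_le
      _ = 13 := by rw [d1, d2, d3, d4, d5]
  obtain ⟨m, hm⟩ : ∃ m : F, (P1 * P2 * P3 * P4 * P5).eval m ≠ 0 := by
    by_contra hcon
    push Not at hcon
    have h1 : (P1 * P2 * P3 * P4 * P5).roots.toFinset = Finset.univ := by
      ext x
      simp only [Multiset.mem_toFinset, Finset.mem_univ, iff_true]
      exact (mem_roots hP0).2 (hcon x)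
    have h3 := Multiset.toFinset_card_le (P1 * P2 * P3 * P4 * P5).roots
    rw [h1, Finset.card_univ] at h3
    have h4 := card_roots' (P1 * P2 * P3 * P4 * P5)
    rw [Nat.card_eq_fintype_card] at hq
    omega
  rw [eval_mul, eval_mul, eval_mul, eval_mul] at hm
  have m5 := right_ne_zero_of_mul hm
  have hm' := left_ne_zero_of_mul hm
  have m4 := right_ne_zero_of_mul hm'
  have hm'' := left_ne_zero_of_mul hm'
  have m3 := right_ne_zero_of_mul hm''
  have hm3 := left_ne_zero_of_mul hm''
  have m2 := right_ne_zero_of_mul hm3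
  have m1 := left_ne_zero_of_mul hm3
  have f1 : m ≠ 0 := by simpa [P1] using m1
  have f2 : 1 - m ^ 2 ≠ 0 := by simpa [P2] using m2
  have f3 : 1 + m ^ 2 ≠ 0 := by rw [add_comm]; simpa [P3] using m3
  have f4 : (1 + m ^ 2) ^ 2 - 2 * m * (1 - m ^ 2) ≠ 0 := by simpa [P4] using m4
  have f5 : (1 + m ^ 2) ^ 2 + 2 * m * (1 - m ^ 2) ≠ 0 := by simpa [P5] using m5
  refine ⟨2 * m / (1 + m ^ 2), (1 - m ^ 2) / (1 + m ^ 2), div_ne_zero (mul_ne_zero h2 f1) f3, div_ne_zero f2 f3, ?_, ?_⟩
  · field_simp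
    ring
  · intro h
    apply mul_ne_zero f4 f5
    field_simp at h
    linear_combination -h

theorem exists_ac_even {F : Type*} [Field F] [Finite F] (h2 : (2 : F) = 0) (hq : 4 < Nat.card F) :
    ∃ a c : F, a ≠ 0 ∧ c ≠ 0 ∧ a * a + c * c = 1 ∧ (a * c) * (a * c) ≠ 1 := by
  classical
  haveI := Fintype.ofFinite F
  have hchar : ringChar F = 2 := by
    have h4 := ringChar.dvd (R := F) (x := 2) (by exact_mod_cast h2)
    exact (Nat.prime_dvd_prime_iff_eq (CharP.char_is_prime F (ringChar F)) Nat.prime_two).1 h4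
  obtain ⟨x, hx⟩ : ∃ x : F, x * (x + 1) * (x ^ 2 + x + 1) ≠ 0 := by
    by_contra hcon
    push Not at hcon
    open Polynomial in
    have h1 : ∀ x : F, (X * (X + 1) * (X ^ 2 + X + 1) : F[X]).eval x = 0 := by
      intro x; simpa using hcon x
    open Polynomial in
    have hP0 : (X * (X + 1) * (X ^ 2 + X + 1) : F[X]) ≠ 0 := by
      have : (X * (X + 1) * (X ^ 2 + X + 1) : F[X]).natDegree = 4 := by
        have : (X * (X + 1) * (X ^ 2 + X + 1) : F[X]) = X ^ 4 + C 2 * X ^ 3 + C 2 * X ^ 2 + X := by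
          rw [show (C 2 : F[X]) = 2 from rfl]; ring
        rw [this]; compute_degree!
      intro h; rw [h, natDegree_zero] at this; exact absurd this (by norm_num)
    open Polynomial in
    have hd : (X * (X + 1) * (X ^ 2 + X + 1) : F[X]).natDegree ≤ 4 := by
      have : (X * (X + 1) * (X ^ 2 + X + 1) : F[X]) = X ^ 4 + C 2 * X ^ 3 + C 2 * X ^ 2 + X := by
        rw [show (C 2 : F[X]) = 2 from rfl]; ring
      rw [this]; compute_degree
    open Polynomial in
    have h3 : (X * (X + 1) * (X ^ 2 + X + 1) : F[X]).roots.toFinset = Finset.univ := by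
      ext x
      simp only [Multiset.mem_toFinset, Finset.mem_univ, iff_true]
      exact (mem_roots hP0).2 (h1 x)
    open Polynomial in
    have h4 := Multiset.toFinset_card_le (X * (X + 1) * (X ^ 2 + X + 1) : F[X]).roots
    rw [h3, Finset.card_univ] at h4
    have h5 := Polynomial.card_roots' (Polynomial.X * (Polynomial.X + 1) * (Polynomial.X ^ 2 + Polynomial.X + 1) : Polynomial F)
    rw [Nat.card_eq_fintype_card] at hq
    omega
  obtain ⟨a, ha⟩ := FiniteField.isSquare_of_char_two hchar x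
  obtain ⟨c, hc⟩ := FiniteField.isSquare_of_char_two hchar (x + 1)
  have g1 : x ≠ 0 := fun h => hx (by rw [h]; ring)
  have g2 : x + 1 ≠ 0 := fun h => hx (by rw [h]; ring)
  have g3 : x ^ 2 + x + 1 ≠ 0 := fun h => hx (by rw [h]; ring)
  refine ⟨a, c, fun h => g1 (by rw [ha, h]; ring), fun h => g2 (by rw [hc, h]; ring), ?_, ?_⟩
  · rw [← ha, ← hc]; linear_combination x * h2
  · intro h
    apply g3
    have : (a * c) * (a * c) = x * (x + 1) := by rw [hc, ha]; ring
    rw [this] at h
    linear_combination h + h2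

open Matrix Cfsg.Agent.H13.SL

section SL2

variable {F : Type*} [Field F]

/-- diagonal element -/
def dd (a : F) (ha : a ≠ 0) : SpecialLinearGroup (Fin 2) F := ⟨!![a, 0; 0, a⁻¹], by simp [ha]⟩

theorem dd_conj (a : F) (ha : a ≠ 0) (t : F) : dd a ha * U t * (dd a ha)⁻¹ = U (a * a * t) := by
  rw [mul_inv_eq_iff_eq_mul]
  apply Subtype.ext
  show (dd a ha : Matrix (Fin 2) (Fin 2) F) * (U t : Matrix (Fin 2) (Fin 2) F) = (U (a * a * t) : Matrix (Fin 2) (Fin 2) F) * (dd a ha : Matrix (Fin 2) (Fin 2) F)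
  rw [coeU, coeU]
  show !![a, 0; 0, a⁻¹] * !![1, t; 0, 1] = !![1, a * a * t; 0, 1] * !![a, 0; 0, a⁻¹]
  simp only [Matrix.mul_fin_two]
  congr 1
  ext i j
  fin_cases i <;> fin_cases j <;> simp
  field_simp

variable [Finite F]

/-- the upper unipotent subgroup -/
def UQ (F : Type*) [Field F] : Subgroup (SpecialLinearGroup (Fin 2) F) where
  carrier := Set.range (U : F → SpecialLinearGroup (Fin 2) F)
  mul_mem' := by
    rintro _ _ ⟨s, rfl⟩ ⟨t, rfl⟩
    exact ⟨s + t, (U_mul s t).symm⟩
  one_mem' := ⟨0, U_zero⟩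
  inv_mem' := by
    rintro _ ⟨s, rfl⟩
    exact ⟨-s, (U_inv s).symm⟩

theorem card_UQ : Nat.card (UQ F) = Nat.card F :=
  (Nat.card_congr (Equiv.ofInjective (U : F → SpecialLinearGroup (Fin 2) F) (fun _ _ h => U_inj h))).symm

theorem card_SL2 : Nat.card (SpecialLinearGroup (Fin 2) F) = (Nat.card F ^ 2 - 1) * Nat.card F := by
  haveI := Fintype.ofFinite F
  have hq : 1 < Fintype.card F := Fintype.one_lt_card
  have h1 := Cfsg.Agent.H5.GL.card_SL (F := F) rfl 2 (by omega)
  rw [Fin.prod_univ_two] at h1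
  simp only [Fin.val_zero, pow_zero, Fin.val_one, pow_one] at h1
  rw [Nat.card_eq_fintype_card (α := F)]
  apply Nat.eq_of_mul_eq_mul_left (show 0 < Fintype.card F - 1 by omega)
  rw [h1]
  have : Fintype.card F ^ 2 - Fintype.card F = Fintype.card F * (Fintype.card F - 1) := by rw [Nat.mul_sub, pow_two, mul_one]
  rw [this]; ring

end SL2

theorem quat_closure (m : ℕ) [NeZero m] : closure ({QuaternionGroup.a 1, QuaternionGroup.xa 0} : Set (QuaternionGroup m)) = ⊤ := by
  rw [eq_top_iff]
  have ha : ∀ i : ZMod (2 * m), QuaternionGroup.a i ∈ closure ({QuaternionGroup.a 1, QuaternionGroup.xa 0} : Set (QuaternionGroup m)) := by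
    intro i
    have h1 : (QuaternionGroup.a 1 : QuaternionGroup m) ^ i.val = QuaternionGroup.a i := by
      rw [QuaternionGroup.a_one_pow, ZMod.natCast_zmod_val]
    rw [← h1]
    exact pow_mem (Subgroup.subset_closure (Set.mem_insert _ _)) _
  rintro (i | i) _
  · exact ha i
  · have h1 : (QuaternionGroup.xa i : QuaternionGroup m) = QuaternionGroup.xa 0 * QuaternionGroup.a i := by
      rw [QuaternionGroup.xa_mul_a, zero_add]
    rw [h1]
    exact mul_mem (Subgroup.subset_closure (Set.mem_insert_of_mem _ rfl)) (ha i)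

theorem mult_SL2 {F : Type u} [Field F] [Fintype F] (h4 : Fintype.card F ≠ 4) (h9 : Fintype.card F ≠ 9) :
    HasCyclicSchurMultiplier (Matrix.SpecialLinearGroup (Fin 2) F) 1 := by
  apply trivial_of_primes
  intro r hr Γ _ _ σ hσ hcard
  obtain ⟨p, hpc⟩ := CharP.exists F
  haveI := hpc
  haveI hpp : Fact p.Prime := ⟨CharP.char_is_prime F p⟩
  obtain ⟨n, _, hn⟩ := FiniteField.card F p
  by_cases hrp : r = p
  · subst hrp
    have hcF : Nat.card F = r ^ (n : ℕ) := by rw [Nat.card_eq_fintype_card, hn]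
    have hQ : IsPGroup r (UQ F) := IsPGroup.of_card (n := (n : ℕ)) (by rw [card_UQ, hcF])
    have hQi : ¬ r ∣ (UQ F).index := by
      have h1 := (UQ F).card_mul_index
      rw [card_UQ, card_SL2, mul_comm (Nat.card F ^ 2 - 1)] at h1
      have h2 := Nat.eq_of_mul_eq_mul_left Nat.card_pos h1
      rw [h2, hcF, ← pow_mul]
      intro hd
      have h3 : r ∣ r ^ ((n : ℕ) * 2) := dvd_pow_self _ (by have := n.pos; omega)
      have h5 : 1 ≤ r ^ ((n : ℕ) * 2) := Nat.one_le_pow _ _ hr.out.pos
      have h6 := (Nat.dvd_sub h3 hd)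
      rw [Nat.sub_sub_self h5] at h6
      exact hr.out.one_lt.ne' (Nat.dvd_one.1 h6)
    by_cases hn1 : (n : ℕ) = 1
    · refine false_of_cyclic σ hσ hcard (UQ F) hQ hQi ?_
      apply isCyclic_of_prime_card (p := r)
      rw [card_UQ, hcF, hn1, pow_one]
    · -- not a prime field
      have hn2 : 2 ≤ (n : ℕ) := by have := n.pos; omega
      have hac : ∃ a c : F, a ≠ 0 ∧ c ≠ 0 ∧ a * a + c * c = 1 ∧ (a * c) * (a * c) ≠ 1 := by
        by_cases hr2 : r = 2
        · subst hr2
          refine exists_ac_even (by exact_mod_cast CharP.cast_eq_zero F 2) ?_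
          have h3 : (n : ℕ) ≠ 2 := by
            intro h; rw [h] at hn; exact h4 (by rw [hn]; norm_num)
          rw [hcF]
          calc 4 < 2 ^ 3 := by norm_num
            _ ≤ 2 ^ (n : ℕ) := Nat.pow_le_pow_right (by norm_num) (by omega)
        · have hr3 : 3 ≤ r := by have := hr.out.two_le; omega
          refine exists_ac_odd (fun h => hr2 ?_) ?_
          · have h3 : r ∣ 2 := (CharP.cast_eq_zero_iff F r 2).1 (by exact_mod_cast h)
            exact (Nat.prime_dvd_prime_iff_eq hr.out Nat.prime_two).1 h3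
          · rw [hcF]
            by_cases hr33 : r = 3
            · subst hr33
              have h3 : (n : ℕ) ≠ 2 := by
                intro h; rw [h] at hn; exact h9 (by rw [hn]; norm_num)
              calc 13 < 3 ^ 3 := by norm_num
                _ ≤ 3 ^ (n : ℕ) := Nat.pow_le_pow_right (by norm_num) (by omega)
            · have hr4 : r ≠ 4 := fun h => by rw [h] at hr; exact absurd hr.out (by norm_num)
              calc 13 < 5 ^ 2 := by norm_num
                _ ≤ r ^ 2 := Nat.pow_le_pow_left (by omega) 2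
                _ ≤ r ^ (n : ℕ) := Nat.pow_le_pow_right (by omega) hn2
      obtain ⟨a, c, ha, hc0, hac1, hac2⟩ := hac
      have hcm : ∀ s t : F, Commute (U s) (U t) := fun s t => by
        show U s * U t = U t * U s
        rw [U_mul, U_mul, add_comm]
      have hb := bil_one (fun s t : F => kap σ hσ.1 (U s) (U t))
        (by intro s t t'; show kap σ hσ.1 (U s) (U (t + t')) = _; rw [← U_mul, kap_mul_right_c σ hσ.1 hσ.2.1 (hcm s t')])
        (by intro s s' t; show kap σ hσ.1 (U (s + s')) (U t) = _; rw [← U_mul, kap_mul_left_c σ hσ.1 hσ.2.1 (hcm s' t)])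
        ha hc0 hac1 hac2 (fun d hd s t => kap_inv_of σ hσ.1 hσ.2.1 (hcm s t) (dd_conj d hd s) (dd_conj d hd t))
      refine false_of_comm_le σ hσ hcard (UQ F) hQ hQi ⊥ ?_ (fun x hx _ => Subgroup.mem_bot.1 hx)
      rw [Subgroup.commutator_le]
      rintro x ⟨s, hs⟩ y ⟨t, ht⟩
      rw [Subgroup.mem_bot, commutatorElement_eq_one_iff_mul_comm]
      exact (kap_comm σ hσ.1 hσ.2.1 (hb s t) hs.symm ht.symm).eq
  · obtain ⟨P⟩ : Nonempty (Sylow r (Matrix.SpecialLinearGroup (Fin 2) F)) := inferInstance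
    have hPi : ¬ r ∣ (P : Subgroup (Matrix.SpecialLinearGroup (Fin 2) F)).index := P.not_dvd_index
    by_cases hr2 : r = 2
    · subst hr2
      have hodd : Odd (Fintype.card F) := by
        rw [hn]
        exact (hpp.out.odd_of_ne_two (fun h => hrp h.symm)).pow
      obtain ⟨k, hk, ⟨e⟩⟩ := Cfsg.Agent.S0261.result hodd P
      haveI : NeZero (2 ^ k) := ⟨by positivity⟩
      let f : QuaternionGroup (2 ^ k) →* Matrix.SpecialLinearGroup (Fin 2) F := (P : Subgroup _).subtype.comp e.symm.toMonoidHom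
      have hf : Function.Injective f := (Subgroup.subtype_injective _).comp e.symm.injective
      refine false_of_quat σ hσ hcard P P.isPGroup' hPi (m := 2 ^ k) Nat.one_le_two_pow (f (QuaternionGroup.a 1)) (f (QuaternionGroup.xa 0)) ?_ ?_ ?_ ?_
      · have h1 : (P : Subgroup (Matrix.SpecialLinearGroup (Fin 2) F)) = f.range := by
          ext g
          constructor
          · intro hg
            refine ⟨e ⟨g, hg⟩, ?_⟩
            show ((e.symm (e ⟨g, hg⟩)) : (P : Subgroup (Matrix.SpecialLinearGroup (Fin 2) F))).1 = g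
            rw [MulEquiv.symm_apply_apply]
          · rintro ⟨y, rfl⟩
            exact (e.symm y).2
        rw [h1, MonoidHom.range_eq_map, ← quat_closure, MonoidHom.map_closure, Set.image_pair]
      · rw [← map_mul, ← map_inv, ← map_mul, ← map_inv]
        congr 1
        rw [mul_inv_eq_iff_eq_mul, eq_inv_mul_iff_mul_eq, QuaternionGroup.xa_mul_a, QuaternionGroup.a_mul_xa]
        congr 1
        ring
      · rw [← map_mul, ← map_pow, QuaternionGroup.xa_mul_xa, QuaternionGroup.a_one_pow]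
        congr 2
        ring
      · rw [orderOf_injective f hf, QuaternionGroup.orderOf_a_one]
    · haveI := Cfsg.Agent.S0262.result (F := F) p r hr2 hrp P
      exact false_of_cyclic σ hσ hcard P P.isPGroup' hPi this

end Cfsg.Agent.H14.Pm
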