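import Mathlib
import Cfsg.Agent.H14_PmB
import Cfsg.Agent.H14_YE

set_option autoImplicit false
set_option linter.all false

/-!
Central extensions of `SL_n`, `n ≥ 3`.
-/

namespace Cfsg.Agent.H14.Pm

open Subgroup Cfsg Cfsg.Agent.H14.Schur Cfsg.Agent.H14.Yk
open scoped Pointwise commutatorElement

universe u v w

section abs

variable {Γ : Type u} {G : Type v} [Group Γ] [Group G] (σ : Γ →* G) (hs : Function.Surjective σ) (hc : σ.ker ≤ center Γ)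
variable {F : Type*} [Field F] {ι : Type*} {x : ι → ι → F → G} (S : St x)
include hc S

theorem K1a {i j k l m : ι} (hij : i ≠ j) (hkl : k ≠ l) (hjk : j ≠ k) (hil : i ≠ l) (hmi : m ≠ i) (hmj : m ≠ j) (hmk : m ≠ k) (hml : m ≠ l)
    (s t : F) : kap σ hs (x i j s) (x k l t) = 1 := by
  obtain ⟨V, hV⟩ := hs (x k l t)
  have e1 : V * kap σ hs (x i m s) (x m j 1) * V⁻¹ = kap σ hs (x i m s) (x m j 1) :=
    kap_conj_of σ hs hc hV (S.cz hkl hmi.symm hil.symm hmk.symm t s) (S.cz hkl hmj hml.symm hjk.symm t 1)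
  have e2 : σ (kap σ hs (x i m s) (x m j 1)) = x i j s := by
    rw [σ_kap, commutatorElement_def, S.cm i m j s 1 hmi.symm hmj hij, mul_one]
  rw [← kap_eq' σ hs hc e2 hV, commutatorElement_eq_one_iff_mul_comm]
  rw [mul_inv_eq_iff_eq_mul] at e1
  exact e1.symm

variable (K1 : ∀ i j k l, i ≠ j → k ≠ l → j ≠ k → i ≠ l → ∀ s t, kap σ hs (x i j s) (x k l t) = 1)
include K1

omit hc K1 in
theorem f_lift {i j k : ι} (hik : i ≠ k) (hkj : k ≠ j) (hij : i ≠ j) (s t : F) : σ (kap σ hs (x i k s) (x k j t)) = x i j (s * t) := by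
  rw [σ_kap, commutatorElement_def, S.cm i k j s t hik hkj hij]

omit S in
theorem lift_comm {i j k l : ι} (hij : i ≠ j) (hkl : k ≠ l) (hjk : j ≠ k) (hil : i ≠ l) {s t : F} {U V : Γ} (hU : σ U = x i j s) (hV : σ V = x k l t) :
    Commute U V := kap_comm σ hs hc (K1 i j k l hij hkl hjk hil s t) hU hV

theorem f_add_r {i j k : ι} (hik : i ≠ k) (hkj : k ≠ j) (hij : i ≠ j) (s t t' : F) :
    kap σ hs (x i k s) (x k j (t + t')) = kap σ hs (x i k s) (x k j t) * kap σ hs (x i k s) (x k j t') := by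
  obtain ⟨V, hV⟩ := hs (x k j t)
  rw [← S.add k j t t' hkj, kap_mul_right σ hs hc _ _ _ hV]
  have c := lift_comm σ hs hc K1 hkj hij hij.symm hkj hV (f_lift σ hs S hik hkj hij s t')
  rw [c.eq, mul_inv_cancel_right]

theorem f_add_l {i j k : ι} (hik : i ≠ k) (hkj : k ≠ j) (hij : i ≠ j) (s s' t : F) :
    kap σ hs (x i k (s + s')) (x k j t) = kap σ hs (x i k s) (x k j t) * kap σ hs (x i k s') (x k j t) := by
  obtain ⟨U, hU⟩ := hs (x i k s)
  rw [← S.add i k s s' hik, kap_mul_left σ hs hc _ _ _ hU]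
  have c := lift_comm σ hs hc K1 hik hij hik.symm hij hU (f_lift σ hs S hik hkj hij s' t)
  rw [c.eq, mul_inv_cancel_right]
  exact (lift_comm σ hs hc K1 hij hij hij.symm hij (f_lift σ hs S hik hkj hij s' t) (f_lift σ hs S hik hkj hij s t)).eq

theorem K3' {i j k l : ι} (hij : i ≠ j) (hik : i ≠ k) (hkj : k ≠ j) (hli : l ≠ i) (hlj : l ≠ j) (hlk : l ≠ k) (s t : F) :
    kap σ hs (x i k s) (x k j t) = kap σ hs (x i l (s * t)) (x l j 1) := by
  obtain ⟨A, hA⟩ := hs (x i k s)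
  obtain ⟨B, hB⟩ := hs (x k l t)
  obtain ⟨C, hC⟩ := hs (x l j 1)
  have hBC : σ ⁅B, C⁆ = x k j t := by
    rw [map_commutatorElement, hB, hC, commutatorElement_def, S.cm k l j t 1 hlk.symm hlj hkj, mul_one]
  have hAB : σ ⁅A, B⁆ = x i l (s * t) := by
    rw [map_commutatorElement, hA, hB, commutatorElement_def, S.cm i k l s t hik hlk.symm hli.symm]
  have hPC : σ ⁅⁅A, B⁆, C⁆ = x i j (s * t) := by
    rw [map_commutatorElement, hAB, hC, commutatorElement_def, S.cm i l j (s * t) 1 hli.symm hlj hij, mul_one]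
  rw [← kap_eq' σ hs hc hA hBC, ← kap_eq' σ hs hc hAB hC]
  have cAC : Commute A C := lift_comm σ hs hc K1 hik hlj hlk.symm hij hA hC
  have cPBC : Commute ⁅A, B⁆ ⁅B, C⁆ := lift_comm σ hs hc K1 hli.symm hkj hlk hij hAB hBC
  have cPC : Commute ⁅⁅A, B⁆, C⁆ ⁅B, C⁆ := lift_comm σ hs hc K1 hij hkj hkj.symm hij hPC hBC
  have e1 : ⁅A, ⁅B, C⁆⁆ = ⁅⁅A, B⁆ * B, C⁆ * ⁅B, C⁆⁻¹ := by
    have e2 : A * C * A⁻¹ = C := by rw [cAC.eq, mul_inv_cancel_right]
    have e3 : ⁅A, ⁅B, C⁆⁆ = ⁅A * B * A⁻¹, A * C * A⁻¹⁆ * ⁅B, C⁆⁻¹ := by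
      simp only [commutatorElement_def]; group
    have e4 : A * B * A⁻¹ = ⁅A, B⁆ * B := by rw [commutatorElement_def]; group
    rw [e3, e2, e4]
  have e5 : ⁅⁅A, B⁆ * B, C⁆ = ⁅A, B⁆ * ⁅B, C⁆ * ⁅A, B⁆⁻¹ * ⁅⁅A, B⁆, C⁆ := by
    generalize ⁅A, B⁆ = P
    simp only [commutatorElement_def]; group
  rw [e1, e5, cPBC.eq, mul_inv_cancel_right, ← cPC.eq, mul_inv_cancel_right]

omit K1 in
/-- the Steinberg family of lifts -/
theorem lift_St (hn : ∀ i j : ι, ∃ k, i ≠ k ∧ j ≠ k)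
    (K1 : ∀ i j k l, i ≠ j → k ≠ l → j ≠ k → i ≠ l → ∀ s t, kap σ hs (x i j s) (x k l t) = 1)
    (K3 : ∀ i j k l, i ≠ j → i ≠ k → k ≠ j → i ≠ l → l ≠ j → ∀ s t, kap σ hs (x i k s) (x k j t) = kap σ hs (x i l (s * t)) (x l j 1)) :
    ∃ y : ι → ι → F → Γ, St y ∧ ∀ i j t, i ≠ j → σ (y i j t) = x i j t := by
  choose k hk1 hk2 using hn
  have hl : ∀ i j t, i ≠ j → σ (kap σ hs (x i (k i j) t) (x (k i j) j 1)) = x i j t := by
    intro i j t hij
    rw [f_lift σ hs S (hk1 i j) (hk2 i j).symm hij, mul_one]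
  refine ⟨fun i j t => kap σ hs (x i (k i j) t) (x (k i j) j 1), ⟨?_, ?_, ?_⟩, hl⟩
  · intro i j s t hij
    exact (f_add_l σ hs hc S K1 (hk1 i j) (hk2 i j).symm hij s t 1).symm
  · intro i j k' l s t hij hkl hjk hil
    exact (lift_comm σ hs hc K1 hij hkl hjk hil (hl i j s hij) (hl k' l t hkl)).eq
  · intro i j l s t hij hjl hil
    show kap σ hs (x i (k i j) s) (x (k i j) j 1) * kap σ hs (x j (k j l) t) (x (k j l) l 1) * (kap σ hs (x i (k i j) s) (x (k i j) j 1))⁻¹ *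
      (kap σ hs (x j (k j l) t) (x (k j l) l 1))⁻¹ = kap σ hs (x i (k i l) (s * t)) (x (k i l) l 1)
    rw [← commutatorElement_def, kap_eq' σ hs hc (hl i j s hij) (hl j l t hjl)]
    exact K3 i l j (k i l) hil hij hjl (hk1 i l) (hk2 i l).symm s t

/-- rank at least three -/
theorem K3_of_four (h4 : ∀ i j k : ι, ∃ l, l ≠ i ∧ l ≠ j ∧ l ≠ k) :
    ∀ i j k l, i ≠ j → i ≠ k → k ≠ j → i ≠ l → l ≠ j → ∀ s t, kap σ hs (x i k s) (x k j t) = kap σ hs (x i l (s * t)) (x l j 1) := by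
  intro i j k l hij hik hkj hil hlj s t
  by_cases hkl : l = k
  · subst hkl
    obtain ⟨m, hmi, hmj, hml⟩ := h4 i j l
    rw [K3' σ hs hc S K1 hij hil hlj hmi hmj hml s t, K3' σ hs hc S K1 hij hmi.symm hmj hil.symm hlj hml.symm (s * t) 1, mul_one]
  · exact K3' σ hs hc S K1 hij hik hkj hil.symm hlj hkl s t

end abs

end Cfsg.Agent.H14.Pm
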