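import Mathlib
import Cfsg.Agent.H14_PmC

set_option autoImplicit false
set_option linter.all false
set_option maxHeartbeats 2000000

/-!
Central extensions of `SL_n(F)`, `n ≥ 3`, split.
-/

namespace Cfsg.Agent.H14.Pm

open Subgroup Cfsg Cfsg.Agent.H14.Schur Cfsg.Agent.H14.Yk
open scoped Pointwise commutatorElement

universe u v w

section dg

variable {F : Type*} [Field F] {n : ℕ}

/-- diagonal elements -/
def dg (a : Fin n → F) (h : ∏ i, a i = 1) : Matrix.SpecialLinearGroup (Fin n) F := ⟨Matrix.diagonal a, by rw [Matrix.det_diagonal, h]⟩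

theorem dg_ne {a : Fin n → F} (h : ∏ i, a i = 1) (i : Fin n) : a i ≠ 0 := by
  intro h0
  rw [Finset.prod_eq_zero (Finset.mem_univ i) h0] at h
  exact zero_ne_one h

theorem dg_conj (a : Fin n → F) (h : ∏ i, a i = 1) {i j : Fin n} (hij : i ≠ j) (t : F) :
    dg a h * tr i j t * (dg a h)⁻¹ = tr i j (a i * (a j)⁻¹ * t) := by
  rw [mul_inv_eq_iff_eq_mul]
  apply Subtype.ext
  show (Matrix.diagonal a : Matrix (Fin n) (Fin n) F) * (tr i j t : Matrix.SpecialLinearGroup (Fin n) F).1 =
    (tr i j (a i * (a j)⁻¹ * t) : Matrix.SpecialLinearGroup (Fin n) F).1 * Matrix.diagonal a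
  rw [tr_coe hij, tr_coe hij]
  ext r s
  rw [Matrix.diagonal_mul, Matrix.mul_diagonal]
  simp only [Matrix.transvection, Matrix.add_apply, Matrix.one_apply, Matrix.single_apply]
  by_cases h1 : i = r ∧ j = s
  · obtain ⟨rfl, rfl⟩ := h1
    simp only [if_neg hij, and_self, if_true, zero_add]
    field_simp [dg_ne h j]
  · rw [if_neg h1, if_neg h1, add_zero]
    by_cases h2 : r = s
    · subst h2; simp
    · simp [h2]

theorem dg_mul (a b : Fin n → F) (h : ∏ i, a i = 1) (h' : ∏ i, b i = 1) (h'' : ∏ i, (a * b) i = 1) : dg a h * dg b h' = dg (a * b) h'' := by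
  apply Subtype.ext
  show Matrix.diagonal a * Matrix.diagonal b = Matrix.diagonal (a * b)
  rw [Matrix.diagonal_mul_diagonal]; rfl

theorem dg_pow_card [Fintype F] (a : Fin n → F) (h : ∏ i, a i = 1) : (dg a h) ^ (Fintype.card F - 1) = 1 := by
  apply Subtype.ext
  rw [Matrix.SpecialLinearGroup.coe_pow]
  show (Matrix.diagonal a) ^ (Fintype.card F - 1) = 1
  rw [Matrix.diagonal_pow, ← Matrix.diagonal_one]
  congr 1
  funext i
  rw [Pi.pow_apply]
  exact FiniteField.pow_card_sub_one_eq_one _ (dg_ne h i)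

/-- three-supported diagonal -/
def m3 (i j k : Fin n) (α β γ : F) : Fin n → F := Pi.mulSingle i α * Pi.mulSingle j β * Pi.mulSingle k γ

theorem m3_prod (i j k : Fin n) {α β γ : F} (h : α * β * γ = 1) : ∏ r, m3 i j k α β γ r = 1 := by
  unfold m3
  simp only [Pi.mul_apply]
  rw [Finset.prod_mul_distrib, Finset.prod_mul_distrib, Finset.prod_pi_mulSingle', Finset.prod_pi_mulSingle', Finset.prod_pi_mulSingle']
  simpa using h

theorem m3_i {i j k : Fin n} (hij : i ≠ j) (hik : i ≠ k) (α β γ : F) : m3 i j k α β γ i = α := by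
  unfold m3; simp [Pi.mulSingle_apply, hij, hik]

theorem m3_j {i j k : Fin n} (hij : i ≠ j) (hjk : j ≠ k) (α β γ : F) : m3 i j k α β γ j = β := by
  unfold m3; simp [Pi.mulSingle_apply, hij.symm, hjk]

theorem m3_k {i j k : Fin n} (hik : i ≠ k) (hjk : j ≠ k) (α β γ : F) : m3 i j k α β γ k = γ := by
  unfold m3; simp [Pi.mulSingle_apply, hik.symm, hjk.symm]

theorem m3_o {i j k l : Fin n} (hi : l ≠ i) (hj : l ≠ j) (hk : l ≠ k) (α β γ : F) : m3 i j k α β γ l = 1 := by
  unfold m3; simp [Pi.mulSingle_apply, hi, hj, hk]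

end dg

theorem scale_one {F : Type*} [Field F] {Γ : Type*} [Group Γ] (g : F → Γ) (hg : ∀ s s', g (s + s') = g s * g s') {c : F} (hc : c ≠ 1)
    (h : ∀ s, g (c * s) = g s) : ∀ s, g s = 1 := by
  have h1 : ∀ s, g ((c - 1) * s) = 1 := by
    intro s
    have e1 := hg ((c - 1) * s) s
    rw [show (c - 1) * s + s = c * s by ring, h] at e1
    exact mul_eq_right.1 e1.symm
  intro s
  have := h1 ((c - 1)⁻¹ * s)
  rwa [mul_inv_cancel_left₀ (sub_ne_zero.2 hc)] at this

section sl

variable {F : Type*} [Field F] [Fintype F] {n : ℕ} {Γ : Type u} [Group Γ] (σ : Γ →* Matrix.SpecialLinearGroup (Fin n) F)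
  (hs : Function.Surjective σ) (hc : σ.ker ≤ center Γ)
include hc

theorem com_tr {i j k l : Fin n} (hij : i ≠ j) (hkl : k ≠ l) (hjk : j ≠ k) (hil : i ≠ l) (s t : F) :
    Commute (tr i j s : Matrix.SpecialLinearGroup (Fin n) F) (tr k l t) := (St_tr n).com i j k l s t hij hkl hjk hil

theorem b_add {i j k l : Fin n} (hij : i ≠ j) (hkl : k ≠ l) (hjk : j ≠ k) (hil : i ≠ l) (s s' t : F) :
    kap σ hs (tr i j (s + s')) (tr k l t) = kap σ hs (tr i j s) (tr k l t) * kap σ hs (tr i j s') (tr k l t) := by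
  rw [← (St_tr n).add i j s s' hij, kap_mul_left_c σ hs hc ((St_tr n).com i j k l s' t hij hkl hjk hil)]

/-- same row or column, `n ≥ 3`, cubes -/
theorem K1_row {i j k : Fin n} (hij : i ≠ j) (hik : i ≠ k) (hjk : j ≠ k) {ν : F} (hν : ν ≠ 0) (hν3 : ν ^ 3 ≠ 1) (s t : F) :
    kap σ hs (tr i j s) (tr i k t) = 1 := by
  revert s
  refine scale_one _ (fun s s' => b_add σ hs hc hij hik hij.symm hik s s' t) hν3 ?_
  intro s
  have hp : ν * (ν⁻¹ ^ 2) * ν = 1 := by field_simp
  refine kap_inv_of σ hs hc (a := dg (m3 i j k ν (ν⁻¹ ^ 2) ν) (m3_prod i j k hp)) ((St_tr n).com i j i k s t hij hik hij.symm hik) ?_ ?_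
  · rw [dg_conj _ _ hij, m3_i hij hik, m3_j hij hjk]
    congr 1; field_simp
  · rw [dg_conj _ _ hik, m3_i hij hik, m3_k hik hjk, mul_inv_cancel₀ hν, one_mul]

theorem K1_col {i j k : Fin n} (hij : i ≠ j) (hik : i ≠ k) (hjk : j ≠ k) {ν : F} (hν : ν ≠ 0) (hν3 : ν ^ 3 ≠ 1) (s t : F) :
    kap σ hs (tr i j s) (tr k j t) = 1 := by
  revert s
  refine scale_one _ (fun s s' => b_add σ hs hc hij hjk.symm hjk hij s s' t) hν3 ?_
  intro s
  have hp : ν ^ 2 * ν⁻¹ * ν⁻¹ = 1 := by field_simp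
  refine kap_inv_of σ hs hc (a := dg (m3 i j k (ν ^ 2) ν⁻¹ ν⁻¹) (m3_prod i j k hp)) ((St_tr n).com i j k j s t hij hjk.symm hjk hij) ?_ ?_
  · rw [dg_conj _ _ hij, m3_i hij hik, m3_j hij hjk]
    congr 1; field_simp
  · rw [dg_conj _ _ hjk.symm, m3_k hik hjk, m3_j hij hjk, mul_inv_cancel₀ (inv_ne_zero hν), one_mul]

theorem K1_far {i j k l : Fin n} (hij : i ≠ j) (hik : i ≠ k) (hil : i ≠ l) (hjk : j ≠ k) (hjl : j ≠ l) (hkl : k ≠ l) (hF : Fintype.card F ≠ 2) (s t : F) :
    kap σ hs (tr i j s) (tr k l t) = 1 := by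
  classical
  have hcm : ∀ s t : F, Commute (tr i j s : Matrix.SpecialLinearGroup (Fin n) F) (tr k l t) := fun s t => (St_tr n).com i j k l s t hij hkl hjk hil
  by_cases hν : ∃ ν : F, ν ≠ 0 ∧ ν ^ 2 ≠ 1
  · obtain ⟨ν, hν, hν2⟩ := hν
    revert s
    refine scale_one _ (fun s s' => b_add σ hs hc hij hkl hjk hil s s' t) hν2 ?_
    intro s
    have hp : ν * ν⁻¹ * 1 = 1 := by field_simp
    refine kap_inv_of σ hs hc (a := dg (m3 i j k ν ν⁻¹ 1) (m3_prod i j k hp)) (hcm s t) ?_ ?_
    · rw [dg_conj _ _ hij, m3_i hij hik, m3_j hij hjk]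
      congr 1; field_simp
    · rw [dg_conj _ _ hkl, m3_k hik hjk, m3_o hil.symm hjl.symm hkl.symm, inv_one, one_mul, one_mul]
  · push Not at hν
    -- the field of three elements
    have h3 : ∀ ν : F, ν = 0 ∨ ν = 1 ∨ ν = -1 := by
      intro ν
      by_cases h0 : ν = 0
      · exact Or.inl h0
      · have h1 := hν ν h0
        have h2 : (ν - 1) * (ν + 1) = 0 := by linear_combination h1
        rcases mul_eq_zero.1 h2 with h | h
        · exact Or.inr (Or.inl (sub_eq_zero.1 h))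
        · exact Or.inr (Or.inr (eq_neg_of_add_eq_zero_left h))
    have hm1 : (-1 : F) ≠ 1 := by
      intro h
      apply hF
      have h2 : ∀ ν : F, ν = 0 ∨ ν = 1 := fun ν => by
        rcases h3 ν with h' | h' | h'
        · exact Or.inl h'
        · exact Or.inr h'
        · exact Or.inr (h'.trans h)
      have e : (Finset.univ : Finset F) = {0, 1} := by
        ext ν
        simp [h2 ν]
      rw [← Finset.card_univ, e, Finset.card_pair zero_ne_one]
    have h30 : (1 : F) + 1 + 1 = 0 := by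
      rcases h3 (1 + 1) with h' | h' | h'
      · exact absurd (eq_neg_of_add_eq_zero_left h').symm hm1
      · exact absurd (by linear_combination h' : (1 : F) = 0) one_ne_zero
      · rw [h']; ring
    have add1 := fun s s' t => b_add σ hs hc hij hkl hjk hil s s' t
    -- swap
    have hsw : ∀ s t : F, kap σ hs (tr i j s) (tr k l t) = (kap σ hs (tr i j t) (tr k l s))⁻¹ := by
      intro s t
      rw [← kap_swap σ hs hc]
      symm
      refine kap_inv_of σ hs hc (a := W (fun (i j : Fin n) (t : F) => tr i j t) j l 1 * W (fun (i j : Fin n) (t : F) => tr i j t) i k 1) (hcm s t) ?_ ?_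
      · have e1 := (St_tr (K := F) n).W_ik hik hjk.symm hij (one_ne_zero) s
        have e2 := (St_tr (K := F) n).W_ki hjl hkl.symm hjk (one_ne_zero) (-1⁻¹ * s)
        have e3 : ∀ g h a : Matrix.SpecialLinearGroup (Fin n) F, g * h * a * (g * h)⁻¹ = g * (h * a * h⁻¹) * g⁻¹ := fun g h a => by group
        rw [e3, e1, e2]
        congr 1
        rw [inv_one]; ring
      · have e1 := (St_tr (K := F) n).W_jk hik hkl hil (one_ne_zero) t
        have e2 := (St_tr (K := F) n).W_kj hjl hil.symm hij.symm (one_ne_zero) (1 * t)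
        have e3 : ∀ g h a : Matrix.SpecialLinearGroup (Fin n) F, g * h * a * (g * h)⁻¹ = g * (h * a * h⁻¹) * g⁻¹ := fun g h a => by group
        rw [e3, e1, e2, inv_one, one_mul, one_mul]
    have b11 : kap σ hs (tr i j 1) (tr k l 1) = 1 := by
      have e1 := hsw 1 1
      have e2 : kap σ hs (tr i j (1 : F)) (tr k l (1 : F)) * kap σ hs (tr i j (1 : F)) (tr k l (1 : F)) = 1 := by
        nth_rewrite 1 [e1]
        rw [inv_mul_cancel]
      have e3 := add1 (1 + 1) 1 1
      rw [h30, add1 1 1 1, e2, one_mul] at e3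
      have e4 := add1 0 0 1
      rw [add_zero] at e4
      have e5 : kap σ hs (tr i j (0 : F)) (tr k l (1 : F)) = 1 := mul_eq_left.1 e4.symm
      rw [← e3, e5]
    have bz : ∀ t, kap σ hs (tr i j (0 : F)) (tr k l t) = 1 := by
      intro t
      have e4 := add1 0 0 t
      rw [add_zero] at e4
      exact mul_eq_left.1 e4.symm
    have bn : ∀ s t, kap σ hs (tr i j s) (tr k l t) = 1 → kap σ hs (tr i j (-s)) (tr k l t) = 1 := by
      intro s t h
      have e4 := add1 (-s) s t
      rw [neg_add_cancel, bz, h, mul_one] at e4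
      exact e4.symm
    have b1 : ∀ t, kap σ hs (tr i j (1 : F)) (tr k l t) = 1 := by
      intro t
      rcases h3 t with rfl | rfl | rfl
      · rw [hsw, bz, inv_one]
      · exact b11
      · rw [hsw, bn 1 1 b11, inv_one]
    rcases h3 s with rfl | rfl | rfl
    · exact bz t
    · exact b1 t
    · exact bn 1 t (b1 t)

theorem kap_one_left (v : Matrix.SpecialLinearGroup (Fin n) F) : kap σ hs 1 v = 1 := by
  have := kap_mul_left_c σ hs hc (u := 1) (u' := 1) (v := v) (Commute.one_left v)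
  rw [one_mul] at this
  exact mul_eq_left.1 this.symm

theorem kap_pow_left {u v : Matrix.SpecialLinearGroup (Fin n) F} (h : Commute u v) (m : ℕ) : kap σ hs (u ^ m) v = (kap σ hs u v) ^ m := by
  induction m with
  | zero => rw [pow_zero, pow_zero, kap_one_left σ hs hc]
  | succ m ih => rw [pow_succ, kap_mul_left_c σ hs hc h, ih, pow_succ]

theorem kap_tor {h : Matrix.SpecialLinearGroup (Fin n) F} (h1 : h ^ (Fintype.card F - 1) = 1) {i j : Fin n} (hij : i ≠ j)
    (hcm : ∀ r : F, Commute h (tr i j r)) (r : F) : kap σ hs h (tr i j r) = 1 := by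
  have add : ∀ r r' : F, kap σ hs h (tr i j (r + r')) = kap σ hs h (tr i j r) * kap σ hs h (tr i j r') := by
    intro r r'
    rw [← (St_tr n).add i j r r' hij, kap_mul_right_c σ hs hc (hcm r')]
  have zero : kap σ hs h (tr i j (0 : F)) = 1 := by
    have := add 0 0
    rw [add_zero] at this
    exact mul_eq_left.1 this.symm
  have hm : ∀ m : ℕ, kap σ hs h (tr i j ((m : F) * r)) = (kap σ hs h (tr i j r)) ^ m := by
    intro m
    induction m with
    | zero => rw [Nat.cast_zero, zero_mul, zero, pow_zero]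
    | succ m ih => rw [Nat.cast_succ, add_mul, one_mul, add, ih, pow_succ]
  have e1 := hm (Fintype.card F)
  rw [FiniteField.cast_card_eq_zero, zero_mul, zero] at e1
  have e2 := kap_pow_left σ hs hc (hcm r) (Fintype.card F - 1)
  rw [h1, kap_one_left σ hs hc] at e2
  have e3 : Fintype.card F = (Fintype.card F - 1) + 1 := by have := Fintype.card_pos (α := F); omega
  rw [e3, pow_succ, ← e2, one_mul] at e1
  exact e1.symm

theorem K3_three (K1 : ∀ i j k l : Fin n, i ≠ j → k ≠ l → j ≠ k → i ≠ l → ∀ s t : F, kap σ hs (tr i j s) (tr k l t) = 1)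
    {i j k : Fin n} (hij : i ≠ j) (hik : i ≠ k) (hkj : k ≠ j) {ν : F} (hν : ν ≠ 0) (hν3 : ν ^ 3 ≠ 1) (s t : F) :
    kap σ hs (tr i k s) (tr k j t) = kap σ hs (tr i k (s * t)) (tr k j 1) := by
  have S := St_tr (K := F) n
  have hl1 : ∀ t, σ (kap σ hs (tr i k s) (tr k j t)) = tr i j (s * t) := fun t => f_lift σ hs S hik hkj hij s t
  have hl2 : ∀ t, σ (kap σ hs (tr i k (s * t)) (tr k j 1)) = tr i j (s * t) := fun t => by
    have := f_lift σ hs S hik hkj hij (s * t) 1
    rwa [mul_one] at this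
  have hcen : ∀ t, kap σ hs (tr i k s) (tr k j t) * (kap σ hs (tr i k (s * t)) (tr k j 1))⁻¹ ∈ center Γ := by
    intro t
    apply hc
    rw [MonoidHom.mem_ker, map_mul, map_inv, hl1, hl2, mul_inv_cancel]
  have hcen' : ∀ t (y : Γ), y * (kap σ hs (tr i k s) (tr k j t) * (kap σ hs (tr i k (s * t)) (tr k j 1))⁻¹) =
      (kap σ hs (tr i k s) (tr k j t) * (kap σ hs (tr i k (s * t)) (tr k j 1))⁻¹) * y := fun t y => mem_center_iff.1 (hcen t) y
  have key : ∀ t, kap σ hs (tr i k s) (tr k j t) * (kap σ hs (tr i k (s * t)) (tr k j 1))⁻¹ = 1 := by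
    refine scale_one _ ?_ hν3 ?_
    · intro t t'
      show kap σ hs (tr i k s) (tr k j (t + t')) * (kap σ hs (tr i k (s * (t + t'))) (tr k j 1))⁻¹ = _
      have e1 := f_add_r σ hs hc S K1 hik hkj hij s t t'
      have e2 := f_add_l σ hs hc S K1 hik hkj hij (s * t) (s * t') 1
      rw [mul_add, e1, e2, mul_inv_rev]
      have e3 := hcen' t' (kap σ hs (tr i k s) (tr k j t))
      have e4 := hcen' t' (kap σ hs (tr i k (s * t)) (tr k j 1))⁻¹
      calc kap σ hs (tr i k s) (tr k j t) * kap σ hs (tr i k s) (tr k j t') * ((kap σ hs (tr i k (s * t')) (tr k j 1))⁻¹ * (kap σ hs (tr i k (s * t)) (tr k j 1))⁻¹)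
          = kap σ hs (tr i k s) (tr k j t) * ((kap σ hs (tr i k s) (tr k j t') * (kap σ hs (tr i k (s * t')) (tr k j 1))⁻¹) * (kap σ hs (tr i k (s * t)) (tr k j 1))⁻¹) := by group
        _ = kap σ hs (tr i k s) (tr k j t) * ((kap σ hs (tr i k (s * t)) (tr k j 1))⁻¹ * (kap σ hs (tr i k s) (tr k j t') * (kap σ hs (tr i k (s * t')) (tr k j 1))⁻¹)) := by rw [e4]
        _ = _ := by rw [mul_assoc]
    · intro t
      show kap σ hs (tr i k s) (tr k j (ν ^ 3 * t)) * (kap σ hs (tr i k (s * (ν ^ 3 * t))) (tr k j 1))⁻¹ = _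
      have hp0 : ν⁻¹ * ν ^ 2 * ν⁻¹ = 1 := by field_simp
      have hp1 : ν ^ 2 * ν⁻¹ * ν⁻¹ = 1 := by field_simp
      have hp : ν * ν * (ν⁻¹ ^ 2) = 1 := by field_simp
      let h0 : Matrix.SpecialLinearGroup (Fin n) F := dg (m3 i k j ν⁻¹ (ν ^ 2) ν⁻¹) (m3_prod i k j hp0)
      let h1 : Matrix.SpecialLinearGroup (Fin n) F := dg (m3 i k j (ν ^ 2) ν⁻¹ ν⁻¹) (m3_prod i k j hp1)
      obtain ⟨H0, hH0⟩ := hs h0
      obtain ⟨H1, hH1⟩ := hs h1
      have c0 : ∀ r : F, Commute h0 (tr i j r) := by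
        intro r
        have := dg_conj (m3 i k j ν⁻¹ (ν ^ 2) ν⁻¹) (m3_prod i k j hp0) hij r
        rw [m3_i hik hij, m3_k hij hkj, mul_inv_cancel₀ (inv_ne_zero hν), one_mul, mul_inv_eq_iff_eq_mul] at this
        exact this
      have cH0 : Commute H0 (kap σ hs (tr i k s) (tr k j t)) :=
        kap_comm σ hs hc (kap_tor σ hs hc (dg_pow_card _ _) hij c0 (s * t)) hH0 (hl1 t)
      have e1 : H0 * kap σ hs (tr i k s) (tr k j t) * H0⁻¹ = kap σ hs (tr i k s) (tr k j t) := by
        rw [cH0.eq, mul_inv_cancel_right]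
      have e2 : H1 * H0 * kap σ hs (tr i k s) (tr k j t) * (H1 * H0)⁻¹ = kap σ hs (tr i k s) (tr k j (ν ^ 3 * t)) := by
        refine kap_conj_of σ hs hc (a := h1 * h0) (by rw [map_mul, hH1, hH0]) ?_ ?_
        · have e3 : h1 * h0 * tr i k s * (h1 * h0)⁻¹ = h1 * (h0 * tr i k s * h0⁻¹) * h1⁻¹ := by group
          rw [e3, dg_conj _ _ hik, dg_conj _ _ hik, m3_i hik hij, m3_j hik hkj, m3_i hik hij, m3_j hik hkj]
          congr 1; field_simp
        · have e3 : h1 * h0 * tr k j t * (h1 * h0)⁻¹ = h1 * (h0 * tr k j t * h0⁻¹) * h1⁻¹ := by group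
          rw [e3, dg_conj _ _ hkj, dg_conj _ _ hkj, m3_j hik hkj, m3_k hij hkj, m3_j hik hkj, m3_k hij hkj]
          congr 1; field_simp
      have e4 : H1 * kap σ hs (tr i k (s * t)) (tr k j 1) * H1⁻¹ = kap σ hs (tr i k (s * (ν ^ 3 * t))) (tr k j 1) := by
        refine kap_conj_of σ hs hc (a := h1) hH1 ?_ ?_
        · rw [dg_conj _ _ hik, m3_i hik hij, m3_j hik hkj]
          congr 1; field_simp
        · rw [dg_conj _ _ hkj, m3_j hik hkj, m3_k hij hkj, mul_inv_cancel₀ (inv_ne_zero hν), one_mul]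
      have e5 : H1 * H0 * kap σ hs (tr i k s) (tr k j t) * (H1 * H0)⁻¹ = H1 * (H0 * kap σ hs (tr i k s) (tr k j t) * H0⁻¹) * H1⁻¹ := by group
      rw [← e2, ← e4, e5, e1]
      have e6 := hcen' t H1
      calc H1 * kap σ hs (tr i k s) (tr k j t) * H1⁻¹ * (H1 * kap σ hs (tr i k (s * t)) (tr k j 1) * H1⁻¹)⁻¹
          = H1 * (kap σ hs (tr i k s) (tr k j t) * (kap σ hs (tr i k (s * t)) (tr k j 1))⁻¹) * H1⁻¹ := by group
        _ = _ := by rw [e6, mul_inv_cancel_right]
  exact mul_inv_eq_one.1 (key t)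

omit hc in
theorem exists_nu (h2 : Fintype.card F ≠ 2) (h4 : Fintype.card F ≠ 4) : ∃ ν : F, ν ≠ 0 ∧ ν ^ 3 ≠ 1 := by
  by_contra hcon
  push Not at hcon
  obtain ⟨g, hg⟩ := IsCyclic.exists_generator (α := Fˣ)
  have h1 : orderOf g = Fintype.card F - 1 := by
    rw [orderOf_eq_card_of_forall_mem_zpowers hg, Nat.card_units, Nat.card_eq_fintype_card]
  have h3 : g ^ 3 = 1 := Units.ext (by rw [Units.val_pow_eq_pow_val]; exact hcon _ g.ne_zero)
  have h5 := orderOf_dvd_of_pow_eq_one h3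
  rw [h1] at h5
  have h6 : 1 < Fintype.card F := Fintype.one_lt_card
  rcases (Nat.dvd_prime Nat.prime_three).1 h5 with h7 | h7 <;> omega

theorem K1_all (hn : 3 ≤ n) (h32 : ¬ (n = 3 ∧ Fintype.card F = 2)) (h34 : ¬ (n = 3 ∧ Fintype.card F = 4)) (h42 : ¬ (n = 4 ∧ Fintype.card F = 2)) :
    ∀ i j k l : Fin n, i ≠ j → k ≠ l → j ≠ k → i ≠ l → ∀ s t : F, kap σ hs (tr i j s) (tr k l t) = 1 := by
  intro i j k l hij hkl hjk hil s t
  have S := St_tr (K := F) n
  by_cases hm : ∃ m : Fin n, m ≠ i ∧ m ≠ j ∧ m ≠ k ∧ m ≠ l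
  · obtain ⟨m, h1, h2, h3, h4⟩ := hm
    exact K1a σ hs hc S hij hkl hjk hil h1 h2 h3 h4 s t
  · have hcard : (Finset.univ : Finset (Fin n)) ⊆ {i, j, k, l} := by
      intro m _
      by_contra h
      simp only [Finset.mem_insert, Finset.mem_singleton, not_or] at h
      exact hm ⟨m, h⟩
    have hc4 := Finset.card_le_card hcard
    rw [Finset.card_univ, Fintype.card_fin] at hc4
    by_cases hik : i = k
    · subst hik
      by_cases hjl : j = l
      · subst hjl
        exfalso
        have : ({i, j, i, j} : Finset (Fin n)).card ≤ 2 := by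
          rw [show ({i, j, i, j} : Finset (Fin n)) = {i, j} by ext x; simp only [Finset.mem_insert, Finset.mem_singleton]; tauto]
          exact Finset.card_le_two
        omega
      · have hc3 : ({i, j, i, l} : Finset (Fin n)).card ≤ 3 := by
          rw [show ({i, j, i, l} : Finset (Fin n)) = {i, j, l} by ext x; simp only [Finset.mem_insert, Finset.mem_singleton]; tauto]
          exact Finset.card_le_three
        have hn3 : n = 3 := by omega
        obtain ⟨ν, hν, hν3⟩ := exists_nu (F := F) (fun h => h32 ⟨hn3, h⟩) (fun h => h34 ⟨hn3, h⟩)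
        exact K1_row σ hs hc hij hil hjl hν hν3 s t
    · by_cases hjl : j = l
      · subst hjl
        have hc3 : ({i, j, k, j} : Finset (Fin n)).card ≤ 3 := by
          rw [show ({i, j, k, j} : Finset (Fin n)) = {i, j, k} by ext x; simp only [Finset.mem_insert, Finset.mem_singleton]; tauto]
          exact Finset.card_le_three
        have hn3 : n = 3 := by omega
        obtain ⟨ν, hν, hν3⟩ := exists_nu (F := F) (fun h => h32 ⟨hn3, h⟩) (fun h => h34 ⟨hn3, h⟩)
        exact K1_col σ hs hc hij hik hjk hν hν3 s t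
      · have hn4 : n ≤ 4 := by
          have := Finset.card_le_four (a := i) (b := j) (c := k) (d := l)
          omega
        have hn3 : n ≠ 3 := by
          intro h
          have h4 : ({i, j, k, l} : Finset (Fin n)).card = 4 := by
            rw [Finset.card_insert_of_notMem (by simp [hij, hik, hil]), Finset.card_insert_of_notMem (by simp [hjk, hjl]), Finset.card_pair hkl]
          have h5 := Finset.card_le_univ ({i, j, k, l} : Finset (Fin n))
          rw [Fintype.card_fin, h4] at h5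
          omega
        exact K1_far σ hs hc hij hik hil hjk hjl hkl (fun h => h42 ⟨by omega, h⟩) s t

theorem K3_all (hn : 3 ≤ n) (h32 : ¬ (n = 3 ∧ Fintype.card F = 2)) (h34 : ¬ (n = 3 ∧ Fintype.card F = 4)) (h42 : ¬ (n = 4 ∧ Fintype.card F = 2)) :
    ∀ i j k l : Fin n, i ≠ j → i ≠ k → k ≠ j → i ≠ l → l ≠ j → ∀ s t : F, kap σ hs (tr i k s) (tr k j t) = kap σ hs (tr i l (s * t)) (tr l j 1) := by
  have K1 := K1_all σ hs hc hn h32 h34 h42
  by_cases hn3 : n = 3
  · intro i j k l hij hik hkj hil hlj s t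
    have : k = l := by
      by_contra hkl
      have h4 : ({i, j, k, l} : Finset (Fin n)).card = 4 := by
        rw [Finset.card_insert_of_notMem (by simp [hij, hik, hil]), Finset.card_insert_of_notMem (by simp [hkj.symm, hlj.symm]), Finset.card_pair hkl]
      have h5 := Finset.card_le_univ ({i, j, k, l} : Finset (Fin n))
      rw [Fintype.card_fin, h4] at h5
      omega
    subst this
    obtain ⟨ν, hν, hν3⟩ := exists_nu (F := F) (fun h => h32 ⟨hn3, h⟩) (fun h => h34 ⟨hn3, h⟩)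
    exact K3_three σ hs hc K1 hij hik hkj hν hν3 s t
  · refine K3_of_four σ hs hc (St_tr n) K1 ?_
    intro i j k
    by_contra hcon
    push Not at hcon
    have hcard : (Finset.univ : Finset (Fin n)) ⊆ {i, j, k} := by
      intro m _
      simp only [Finset.mem_insert, Finset.mem_singleton]
      by_contra h
      push Not at h
      exact h.2.2 (hcon m h.1 h.2.1)
    have := (Finset.card_le_card hcard).trans Finset.card_le_three
    rw [Finset.card_univ, Fintype.card_fin] at this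
    omega

include hs in
theorem exists_split (hn : 3 ≤ n) (h32 : ¬ (n = 3 ∧ Fintype.card F = 2)) (h34 : ¬ (n = 3 ∧ Fintype.card F = 4)) (h42 : ¬ (n = 4 ∧ Fintype.card F = 2)) :
    ∃ s : Matrix.SpecialLinearGroup (Fin n) F →* Γ, ∀ x, σ (s x) = x := by
  obtain ⟨y, hy, hy'⟩ := lift_St σ hs hc (St_tr n) (fun i j => by
    by_contra hcon
    push Not at hcon
    have hcard : (Finset.univ : Finset (Fin n)) ⊆ {i, j} := by
      intro m _
      simp only [Finset.mem_insert, Finset.mem_singleton]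
      by_cases h : i = m
      · exact Or.inl h.symm
      · exact Or.inr (hcon m h).symm
    have := (Finset.card_le_card hcard).trans Finset.card_le_two
    rw [Finset.card_univ, Fintype.card_fin] at this
    omega) (K1_all σ hs hc hn h32 h34 h42) (K3_all σ hs hc hn h32 h34 h42)
  obtain ⟨φ, hφ⟩ := hy.exists_hom hn
  refine ⟨φ, fun x => ?_⟩
  haveI : Nontrivial (Fin n) := Fin.nontrivial_iff_two_le.mpr (by omega)
  have hx : x ∈ Subgroup.closure {g : Matrix.SpecialLinearGroup (Fin n) F | ∃ (i j : Fin n) (hij : i ≠ j) (a : F),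
      g = Matrix.SpecialLinearGroup.transvection hij a} := by
    rw [Cfsg.Agent.H5.SL.closure_transvections]; trivial
  have := MonoidHom.eqOn_closure (f := σ.comp φ) (g := MonoidHom.id _) (s := {g : Matrix.SpecialLinearGroup (Fin n) F | ∃ (i j : Fin n) (hij : i ≠ j) (a : F),
      g = Matrix.SpecialLinearGroup.transvection hij a}) (by
    rintro _ ⟨i, j, hij, a, rfl⟩
    show σ (φ (Matrix.SpecialLinearGroup.transvection hij a)) = Matrix.SpecialLinearGroup.transvection hij a
    rw [← tr_ne hij, hφ i j hij, hy' i j a hij]) hx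
  exact this

end sl

theorem mult_SLn {F : Type u} [Field F] [Fintype F] {n : ℕ} (hn : 3 ≤ n) (h32 : ¬ (n = 3 ∧ Fintype.card F = 2)) (h34 : ¬ (n = 3 ∧ Fintype.card F = 4))
    (h42 : ¬ (n = 4 ∧ Fintype.card F = 2)) : HasCyclicSchurMultiplier (Matrix.SpecialLinearGroup (Fin n) F) 1 := by
  apply trivial_of_primes
  intro r hr Γ _ _ σ hσ hcard
  obtain ⟨s, hs⟩ := exists_split σ hσ.1 hσ.2.1 hn h32 h34 h42
  have h1 : commutator Γ ≤ s.range := by
    refine (comm_le_of_mul_center s.range (fun x => ?_)).trans (Subgroup.commutator_le.2 fun x hx y hy => by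
      rw [commutatorElement_def]; exact mul_mem (mul_mem (mul_mem hx hy) (inv_mem hx)) (inv_mem hy))
    refine ⟨s (σ x), ⟨σ x, rfl⟩, (s (σ x))⁻¹ * x, hσ.2.1 ?_, by group⟩
    rw [MonoidHom.mem_ker, map_mul, map_inv, hs, inv_mul_cancel]
  have h2 : σ.ker = ⊥ := by
    rw [eq_bot_iff]
    intro x hx
    obtain ⟨y, rfl⟩ := h1 (hσ.2.2 hx)
    rw [MonoidHom.mem_ker, hs] at hx
    rw [hx, map_one]
    exact Subgroup.mem_bot.2 rfl
  rw [h2, Subgroup.card_bot] at hcard
  exact hr.out.one_lt.ne hcard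

end Cfsg.Agent.H14.Pm
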