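import Mathlib

set_option autoImplicit false
set_option linter.all false

/-!
Module-type words for presentations of `SL₂(q)`.
-/

namespace Cfsg.Agent.H14.Pr

open Polynomial

section conj

variable {G : Type*} [Group G] (u a : G)

/-- conjugates -/
def cu (k : ℤ) : G := a ^ k * u * (a ^ k)⁻¹

theorem cu_zero : cu u a 0 = u := by unfold cu; simp

theorem cu_conj (k l : ℤ) : a ^ l * cu u a k * (a ^ l)⁻¹ = cu u a (l + k) := by
  unfold cu
  rw [zpow_add]; group

theorem cu_one : cu u a 1 = a * u * a⁻¹ := by unfold cu; simp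

theorem comm_conj {g x y : G} : Commute (g * x * g⁻¹) (g * y * g⁻¹) ↔ Commute x y := by
  constructor
  · intro h
    have e : ∀ z : G, z = g⁻¹ * (g * z * g⁻¹) * g := fun z => by group
    have h1 : g * (x * y) * g⁻¹ = g * (y * x) * g⁻¹ := by
      have e1 : g * (x * y) * g⁻¹ = g * x * g⁻¹ * (g * y * g⁻¹) := by group
      have e2 : g * (y * x) * g⁻¹ = g * y * g⁻¹ * (g * x * g⁻¹) := by group
      rw [e1, e2]; exact h
    exact mul_left_cancel (mul_right_cancel h1)
  · intro h
    show _ * _ = _ * _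
    have e1 : g * (x * y) * g⁻¹ = g * x * g⁻¹ * (g * y * g⁻¹) := by group
    have e2 : g * (y * x) * g⁻¹ = g * y * g⁻¹ * (g * x * g⁻¹) := by group
    rw [← e1, ← e2, h.eq]

theorem comm_of_nonneg (h : ∀ m n : ℕ, Commute (cu u a m) (cu u a n)) : ∀ k l : ℤ, Commute (cu u a k) (cu u a l) := by
  intro k l
  have h1 := h (k + (k.natAbs + l.natAbs : ℕ)).toNat (l + (k.natAbs + l.natAbs : ℕ)).toNat
  rw [Int.toNat_of_nonneg (by omega), Int.toNat_of_nonneg (by omega), add_comm k, add_comm l, ← cu_conj, ← cu_conj, comm_conj] at h1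
  exact h1

theorem trick {b : G} {c : ℤ} (hcc : c = 1 ∨ c = -1) (hab : Commute a b) (h1 : Commute u (cu u a 1)) (hb : b * u * b⁻¹ = u ^ c * cu u a 1) : ∀ k l : ℤ, Commute (cu u a k) (cu u a l) := by
  have hbc : ∀ n : ℤ, b * cu u a n * b⁻¹ = (cu u a n) ^ c * cu u a (n + 1) := by
    intro n
    have e1 : b * cu u a n * b⁻¹ = a ^ n * (b * u * b⁻¹) * (a ^ n)⁻¹ := by
      unfold cu
      have c : a ^ n * b = b * a ^ n := (hab.zpow_left n).eq
      have c' : (a ^ n)⁻¹ * b⁻¹ = b⁻¹ * (a ^ n)⁻¹ := by rw [← mul_inv_rev, ← mul_inv_rev, c]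
      calc b * (a ^ n * u * (a ^ n)⁻¹) * b⁻¹ = (b * a ^ n) * u * ((a ^ n)⁻¹ * b⁻¹) := by group
        _ = (a ^ n * b) * u * (b⁻¹ * (a ^ n)⁻¹) := by rw [c, c']
        _ = _ := by group
    rw [e1, hb]
    have e2 : a ^ n * (u ^ c * cu u a 1) * (a ^ n)⁻¹ = (a ^ n * u ^ c * (a ^ n)⁻¹) * (a ^ n * cu u a 1 * (a ^ n)⁻¹) := by
      group
    rw [e2, ← conj_zpow, cu_conj]
    rfl
  have hcu : ∀ {z y : G}, Commute (z ^ c) y → Commute z y := by
    intro z y hz
    rcases hcc with rfl | rfl
    · simpa using hz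
    · have := hz.inv_left; simpa using this
  have P : ∀ n : ℕ, Commute u (cu u a n) := by
    intro n
    induction n using Nat.strong_induction_on with
    | _ n ih =>
      rcases n with _ | _ | n
      · show Commute u (cu u a 0)
        rw [cu_zero]
      · exact h1
      · -- n + 2
        have d : ∀ (i j : ℕ), j < n + 2 → Commute (cu u a i) (cu u a (i + j)) := by
          intro i j hj
          have := ih j hj
          rw [← comm_conj (g := a ^ (i : ℤ)), cu_conj] at this
          exact this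
        have c1 : Commute (b * u * b⁻¹) (b * cu u a (n + 1 : ℕ) * b⁻¹) := comm_conj.2 (ih (n + 1) (by omega))
        rw [hb, hbc] at c1
        have c2 : Commute (cu u a 1) (cu u a (n + 1 : ℕ)) := by
          have := d 1 n (by omega)
          have e : ((1 : ℕ) : ℤ) + (n : ℤ) = ((n + 1 : ℕ) : ℤ) := by push_cast; ring
          rw [e] at this
          exact_mod_cast this
        have c3 : Commute (cu u a 1) (cu u a ((n + 1 : ℕ) + 1)) := by
          have := d 1 (n + 1) (by omega)
          have e : ((1 : ℕ) : ℤ) + ((n + 1 : ℕ) : ℤ) = ((n + 1 : ℕ) : ℤ) + 1 := by push_cast; ring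
          rw [e] at this
          exact_mod_cast this
        have c4 : Commute u ((cu u a (n + 1 : ℕ)) ^ c * cu u a ((n + 1 : ℕ) + 1)) := by
          have h5 : Commute ((u ^ c * cu u a 1) * (cu u a 1)⁻¹) ((cu u a (n + 1 : ℕ)) ^ c * cu u a ((n + 1 : ℕ) + 1)) :=
            c1.mul_left ((c2.zpow_right c).mul_right c3).inv_left
          rw [mul_inv_cancel_right] at h5
          exact hcu h5
        have c5 : Commute u (cu u a (n + 1 : ℕ)) := ih (n + 1) (by omega)
        have e : cu u a ((n + 1 + 1 : ℕ) : ℤ) = ((cu u a (n + 1 : ℕ)) ^ c)⁻¹ * ((cu u a (n + 1 : ℕ)) ^ c * cu u a ((n + 1 : ℕ) + 1)) := by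
          rw [inv_mul_cancel_left]; congr 1
        rw [e]
        exact (c5.zpow_right c).inv_right.mul_right c4
  apply comm_of_nonneg
  intro m n
  rcases le_total m n with h | h
  · obtain ⟨d, rfl⟩ := Nat.exists_eq_add_of_le h
    have := P d
    rw [← comm_conj (g := a ^ (m : ℤ)), cu_conj] at this
    have e : a ^ (m : ℤ) * u * (a ^ (m : ℤ))⁻¹ = cu u a m := rfl
    rw [e] at this
    exact_mod_cast this
  · obtain ⟨d, rfl⟩ := Nat.exists_eq_add_of_le h
    have := P d
    rw [← comm_conj (g := a ^ (n : ℤ)), cu_conj] at this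
    have e : a ^ (n : ℤ) * u * (a ^ (n : ℤ))⁻¹ = cu u a n := rfl
    rw [e] at this
    exact_mod_cast this.symm

theorem comm_small (h1 : Commute u (cu u a 1)) (h2 : cu u a 2 ∈ Subgroup.closure ({u, cu u a 1} : Set G)) :
    ∀ k l : ℤ, Commute (cu u a k) (cu u a l) := by
  let B := Subgroup.closure ({u, cu u a 1} : Set G)
  have hB : ∀ x ∈ B, ∀ y ∈ B, x * y = y * x := by
    have hc : ∀ x ∈ ({u, cu u a 1} : Set G), ∀ y ∈ ({u, cu u a 1} : Set G), x * y = y * x := by
      rintro x (rfl | rfl) y (rfl | rfl)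
      · rfl
      · exact h1.eq
      · exact h1.eq.symm
      · rfl
    intro x hx y hy
    have := (Subgroup.closureCommGroupOfComm hc).mul_comm ⟨x, hx⟩ ⟨y, hy⟩
    exact congrArg Subtype.val this
  have hmem : ∀ n : ℕ, cu u a n ∈ B := by
    intro n
    induction n with
    | zero =>
      show cu u a 0 ∈ B
      rw [cu_zero]; exact Subgroup.subset_closure (Or.inl rfl)
    | succ n ih =>
      have e : cu u a ((n + 1 : ℕ) : ℤ) = a * cu u a n * a⁻¹ := by
        have := cu_conj u a n 1
        rw [zpow_one] at this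
        rw [this]; congr 1; push_cast; ring
      rw [e]
      have hle : B ≤ B.comap (MulAut.conj a).toMonoidHom := by
        refine (Subgroup.closure_le _).2 ?_
        rintro x (rfl | rfl)
        · show a * x * a⁻¹ ∈ B
          rw [← cu_one]; exact Subgroup.subset_closure (Or.inr rfl)
        · show a * cu u a 1 * a⁻¹ ∈ B
          have := cu_conj u a 1 1
          rw [zpow_one] at this
          rw [this]
          exact h2
      exact hle ih
  apply comm_of_nonneg
  intro m n
  exact hB _ (hmem m) _ (hmem n)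

/-- product word -/
def pwn (c : ℕ → ℤ) : ℕ → G
  | 0 => 1
  | n + 1 => pwn c n * (a ^ n * u ^ (c n) * (a ^ n)⁻¹)

theorem pwn_map {H : Type*} [Group H] (f : G →* H) (c : ℕ → ℤ) (n : ℕ) : f (pwn u a c n) = pwn (f u) (f a) c n := by
  induction n with
  | zero => exact map_one f
  | succ n ih => simp only [pwn, map_mul, map_inv, map_pow, map_zpow, ih]

theorem exists_E (hC : ∀ k l : ℤ, Commute (cu u a k) (cu u a l)) : ∃ E : ℤ[X] → G, (∀ f g, E (f + g) = E f * E g) ∧ (∀ f, E (X * f) = a * E f * a⁻¹) ∧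
    (∀ f, E f = pwn u a f.coeff (f.natDegree + 1)) ∧ (∀ f g, E f = 1 → E (g * f) = 1) ∧ (∀ (n : ℤ) g, E (C n * g) = (E g) ^ n) ∧ E 1 = u ∧
    (∀ f g, Commute (E f) (E g)) ∧ (∀ g ∈ Subgroup.closure (Set.range (cu u a)), ∀ h ∈ Subgroup.closure (Set.range (cu u a)), g * h = h * g) ∧
    (∀ f, E f ∈ Subgroup.closure (Set.range (cu u a))) := by
  have hc : ∀ x ∈ Set.range (cu u a), ∀ y ∈ Set.range (cu u a), x * y = y * x := by
    rintro _ ⟨k, rfl⟩ _ ⟨l, rfl⟩
    exact hC k l
  letI : CommGroup (Subgroup.closure (Set.range (cu u a))) := Subgroup.closureCommGroupOfComm hc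
  let A := Subgroup.closure (Set.range (cu u a))
  have hle : A ≤ A.comap (MulAut.conj a).toMonoidHom := by
    refine (Subgroup.closure_le _).2 ?_
    rintro _ ⟨k, rfl⟩
    show a * cu u a k * a⁻¹ ∈ A
    have := cu_conj u a k 1
    rw [zpow_one] at this
    rw [this]
    exact Subgroup.subset_closure ⟨_, rfl⟩
  let Tm : A →* A :=
    { toFun := fun x => ⟨a * x.1 * a⁻¹, hle x.2⟩
      map_one' := Subtype.ext (by show a * 1 * a⁻¹ = 1; group)
      map_mul' := fun x y => Subtype.ext (by show a * (x.1 * y.1) * a⁻¹ = a * x.1 * a⁻¹ * (a * y.1 * a⁻¹); group) }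
  let T : Module.End ℤ (Additive A) := (MonoidHom.toAdditive Tm).toIntLinearMap
  let u0 : Additive A := Additive.ofMul ⟨u, Subgroup.subset_closure ⟨0, cu_zero u a⟩⟩
  let val : ℤ[X] → Additive A := fun f => (aeval T f) u0
  let E : ℤ[X] → G := fun f => (Additive.toMul (val f)).1
  have hT : ∀ v : Additive A, (Additive.toMul (T v)).1 = a * (Additive.toMul v).1 * a⁻¹ := fun v => rfl
  have hTk : ∀ (k : ℕ) (v : Additive A), (Additive.toMul ((T ^ k) v)).1 = a ^ k * (Additive.toMul v).1 * (a ^ k)⁻¹ := by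
    intro k v
    induction k with
    | zero => simp
    | succ k ih =>
      rw [pow_succ', Module.End.mul_apply, hT, ih, pow_succ']; group
  refine ⟨E, ?_, ?_, ?_, ?_, ?_, ?_, ?_, ?_, ?_⟩
  · intro f g
    show (Additive.toMul ((aeval T (f + g)) u0)).1 = _
    rw [map_add, LinearMap.add_apply]; rfl
  · intro f
    show (Additive.toMul ((aeval T (X * f)) u0)).1 = _
    rw [map_mul, aeval_X, Module.End.mul_apply, hT]
  · intro f
    show (Additive.toMul ((aeval T f) u0)).1 = _
    have key : ∀ n : ℕ, (Additive.toMul ((∑ i ∈ Finset.range n, f.coeff i • T ^ i) u0)).1 = pwn u a f.coeff n := by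
      intro n
      induction n with
      | zero => simp [pwn]
      | succ n ih =>
        rw [Finset.sum_range_succ, LinearMap.add_apply]
        show (Additive.toMul ((∑ i ∈ Finset.range n, f.coeff i • T ^ i) u0)).1 * (Additive.toMul ((f.coeff n • T ^ n) u0)).1 = _
        rw [ih]
        show _ = pwn u a f.coeff n * _
        congr 1
        rw [LinearMap.smul_apply]
        have e1 : (Additive.toMul (f.coeff n • (T ^ n) u0)).1 = ((Additive.toMul ((T ^ n) u0)).1) ^ (f.coeff n) := by
          rw [toMul_zsmul]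
          exact Subgroup.coe_zpow _ _ _
        rw [e1, hTk, conj_zpow]; rfl
    rw [aeval_eq_sum_range]
    exact key _
  · intro f g hf
    have h0 : val f = 0 := by
      apply Additive.toMul.injective
      exact Subtype.ext hf
    show (Additive.toMul ((aeval T (g * f)) u0)).1 = 1
    rw [map_mul, Module.End.mul_apply]
    have : (aeval T f) u0 = 0 := h0
    rw [this, map_zero]; rfl
  · intro n g
    show (Additive.toMul ((aeval T (C n * g)) u0)).1 = _
    have e0 : (C n : ℤ[X]) * g = n • g := by rw [← smul_eq_C_mul]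
    rw [e0, map_zsmul, LinearMap.smul_apply, toMul_zsmul]
    exact Subgroup.coe_zpow _ _ _
  · show (Additive.toMul ((aeval T (1 : ℤ[X])) u0)).1 = u
    rw [map_one]; rfl
  · intro f g
    exact congrArg Subtype.val (mul_comm (Additive.toMul (val f)) (Additive.toMul (val g)))
  · intro g hg h hh
    exact congrArg Subtype.val (mul_comm (⟨g, hg⟩ : A) ⟨h, hh⟩)
  · intro f
    exact (Additive.toMul (val f)).2

end conj

section field

variable {F : Type*} [Field F] {p : ℕ} [Fact p.Prime] [Algebra (ZMod p) F]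

theorem ker_ev {x0 : F} {M : ℤ[X]} (hM : M.map (Int.castRingHom (ZMod p)) = minpoly (ZMod p) x0) (f : ℤ[X]) (hf : aeval x0 f = 0) :
    ∃ g h : ℤ[X], f = g * M + h * C (p : ℤ) := by
  have h1 : aeval x0 (f.map (Int.castRingHom (ZMod p))) = 0 := by
    have := aeval_map_algebraMap (ZMod p) x0 f
    rw [show algebraMap ℤ (ZMod p) = Int.castRingHom (ZMod p) from rfl] at this
    rw [this, hf]
  obtain ⟨g', hg'⟩ := minpoly.dvd _ _ h1
  obtain ⟨g, rfl⟩ := Polynomial.map_surjective (Int.castRingHom (ZMod p)) (ZMod.ringHom_surjective _) g'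
  have h2 : (f - g * M).map (Int.castRingHom (ZMod p)) = 0 := by
    rw [Polynomial.map_sub, Polynomial.map_mul, hM, hg', mul_comm, sub_self]
  have h3 : C (p : ℤ) ∣ f - g * M := by
    rw [C_dvd_iff_dvd_coeff]
    intro i
    have := congrArg (fun q => q.coeff i) h2
    simp only [coeff_map, coeff_zero] at this
    exact (ZMod.intCast_zmod_eq_zero_iff_dvd _ _).1 (by exact_mod_cast this)
  obtain ⟨h, hh⟩ := h3
  exact ⟨g, h, by linear_combination hh⟩

theorem ev_surj {x0 : F} (hx : Algebra.adjoin (ZMod p) {x0} = ⊤) (s : F) : ∃ f : ℤ[X], aeval x0 f = s := by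
  have : s ∈ Algebra.adjoin (ZMod p) {x0} := by rw [hx]; trivial
  rw [Algebra.adjoin_singleton_eq_range_aeval] at this
  obtain ⟨f', hf'⟩ := this
  obtain ⟨f, rfl⟩ := Polynomial.map_surjective (Int.castRingHom (ZMod p)) (ZMod.ringHom_surjective _) f'
  refine ⟨f, ?_⟩
  have := aeval_map_algebraMap (ZMod p) x0 f
  rw [show algebraMap ℤ (ZMod p) = Int.castRingHom (ZMod p) from rfl] at this
  rw [← this]; exact hf'

theorem exists_M [Finite F] (x0 : F) : ∃ M : ℤ[X], M.map (Int.castRingHom (ZMod p)) = minpoly (ZMod p) x0 ∧ M.Monic ∧ M.natDegree = (minpoly (ZMod p) x0).natDegree := by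
  have hl : minpoly (ZMod p) x0 ∈ Polynomial.lifts (Int.castRingHom (ZMod p)) := by
    rw [Polynomial.mem_lifts]
    exact Polynomial.map_surjective _ (ZMod.ringHom_surjective _) _
  obtain ⟨M, h1, h2, h3⟩ := Polynomial.lifts_and_natDegree_eq_and_monic hl (minpoly.monic (Algebra.IsIntegral.isIntegral x0))
  exact ⟨M, h1, h3, h2⟩

end field

end Cfsg.Agent.H14.Pr
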