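import Mathlib
import Cfsg.Agent.H14_YB
import Cfsg.Agent.H14_PrA

set_option autoImplicit false
set_option linter.all false

/-!
Short presentations of `SL₂(q)`: the main verification.
-/

namespace Cfsg.Agent.H14.Pr

open Polynomial Cfsg.Agent.H14.Yk Cfsg.Agent.H13.SL

section R1of

variable {F : Type*} [Field F] {G : Type*} [Group G]

theorem cj {g a b : G} : g * (a * b) * g⁻¹ = (g * a * g⁻¹) * (g * b * g⁻¹) := by group

theorem R1_of {κ : F} (hκ0 : κ ≠ 0) (hκ : ∀ c : F, c ≠ 0 → ∃ n : ℕ, c = κ ^ n) {x : F → G} {t h : G}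
    (hx : ∀ s s', x s * x s' = x (s + s')) (hh : ∀ s, h * x s * h⁻¹ = x (κ ^ 2 * s)) (ht : t * h * t⁻¹ * h = 1)
    (h7 : t = x 1 * (t * x 1 * t⁻¹) * x 1) (h9 : h * t = x κ * (t * x κ⁻¹ * t⁻¹) * x κ)
    (h8 : ∀ s, t ^ 2 * x s * (t ^ 2)⁻¹ = x s) :
    R1 x (fun s => t * x (-s) * t⁻¹) ∧ Yk.w x (fun s => t * x (-s) * t⁻¹) 1 = t ∧
      Yk.h x (fun s => t * x (-s) * t⁻¹) κ = h := by
  set y : F → G := fun s => t * x (-s) * t⁻¹ with hy
  have hyy : ∀ s, y s = t * x (-s) * t⁻¹ := fun s => rfl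
  have hti : t⁻¹ * h * t = h⁻¹ := by
    have h1 : t * h * t⁻¹ = h⁻¹ := eq_inv_of_mul_eq_one_left ht
    have h2 : h = t⁻¹ * h⁻¹ * t := by rw [← h1]; group
    calc t⁻¹ * h * t = (t⁻¹ * h⁻¹ * t)⁻¹ := by group
      _ = _ := by rw [← h2]
  have htt : h * t = t * h⁻¹ := by rw [← hti]; group
  have hxi : ∀ s, h⁻¹ * x s * h = x ((κ ^ 2)⁻¹ * s) := by
    intro s
    have := hh ((κ ^ 2)⁻¹ * s)
    rw [mul_inv_cancel_left₀ (pow_ne_zero 2 hκ0)] at this
    rw [← this]; group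
  have hyh : ∀ s, h * y s * h⁻¹ = y ((κ ^ 2)⁻¹ * s) := by
    intro s
    calc h * (t * x (-s) * t⁻¹) * h⁻¹ = (h * t) * x (-s) * (h * t)⁻¹ := by group
      _ = t * (h⁻¹ * x (-s) * h) * t⁻¹ := by rw [htt]; group
      _ = t * x (-((κ ^ 2)⁻¹ * s)) * t⁻¹ := by rw [hxi, mul_neg]
  have hyn : ∀ (n : ℕ) s, h ^ n * y s * (h ^ n)⁻¹ = y ((κ ^ n)⁻¹ ^ 2 * s) := by
    intro n
    induction n with
    | zero => intro s; simp
    | succ n ih =>
      intro s
      calc h ^ (n + 1) * y s * (h ^ (n + 1))⁻¹ = h ^ n * (h * y s * h⁻¹) * (h ^ n)⁻¹ := by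
            rw [pow_succ]; group
        _ = y ((κ ^ (n + 1))⁻¹ ^ 2 * s) := by
          rw [hyh, ih]; congr 1
          field_simp; ring
  have Wn : ∀ n : ℕ, x (κ ^ n) * y (-(κ ^ n)⁻¹) * x (κ ^ n) = h ^ n * t := by
    intro n
    induction n using Nat.twoStepInduction with
    | zero =>
      rw [pow_zero, pow_zero, one_mul, inv_one, hyy, neg_neg]
      exact h7.symm
    | one =>
      rw [pow_one, pow_one, hyy, neg_neg]
      exact h9.symm
    | more n ih _ =>
      have e1 : h * (x (κ ^ n) * y (-(κ ^ n)⁻¹) * x (κ ^ n)) * h⁻¹ = x (κ ^ (n + 2)) * y (-(κ ^ (n + 2))⁻¹) * x (κ ^ (n + 2)) := by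
        rw [cj, cj, hh, hyh]
        congr 1
        · congr 1
          · congr 1; ring
          · congr 1; rw [pow_add]; field_simp
        · congr 1; ring
      rw [← e1, ih]
      calc h * (h ^ n * t) * h⁻¹ = h * h ^ n * (t * h⁻¹) := by group
        _ = h * h ^ n * (h * t) := by rw [htt]
        _ = h ^ (n + 2) * t := by rw [pow_add, ← pow_succ']; group
  have hw : ∀ c u, c ≠ 0 → (x c * y (-c⁻¹) * x c) * x u * (x c * y (-c⁻¹) * x c)⁻¹ = y (-(c⁻¹ ^ 2 * u)) := by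
    intro c u hc
    obtain ⟨n, rfl⟩ := hκ c hc
    rw [Wn]
    calc h ^ n * t * x u * (h ^ n * t)⁻¹ = h ^ n * (t * x (- -u) * t⁻¹) * (h ^ n)⁻¹ := by rw [neg_neg]; group
      _ = h ^ n * y (-u) * (h ^ n)⁻¹ := rfl
      _ = _ := by rw [hyn, mul_neg]
  have R : R1 x y := by
    refine ⟨hx, ?_, hw, ?_⟩
    · intro s s'
      show t * x (-s) * t⁻¹ * (t * x (-s') * t⁻¹) = t * x (-(s + s')) * t⁻¹
      rw [← cj, hx, neg_add]
    · intro c u hc
      have e0 : ∀ s, t * y s * t⁻¹ = x (-s) := by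
        intro s
        calc t * (t * x (-s) * t⁻¹) * t⁻¹ = (t * t) * x (-s) * (t * t)⁻¹ := by group
          _ = _ := by rw [← pow_two]; exact h8 _
      have e0' : ∀ s, t * x s * t⁻¹ = y (-s) := by
        intro s
        show _ = t * x (- -s) * t⁻¹
        rw [neg_neg]
      have e1 : y c * x (-c⁻¹) * y c = t * (x (-c) * y (-(-c)⁻¹) * x (-c)) * t⁻¹ := by
        rw [cj, cj, e0', e0, neg_neg, neg_neg, inv_neg]
      have e2 : t⁻¹ * y u * t = x (-u) := by rw [hyy]; group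
      rw [e1]
      calc t * (x (-c) * y (-(-c)⁻¹) * x (-c)) * t⁻¹ * y u * (t * (x (-c) * y (-(-c)⁻¹) * x (-c)) * t⁻¹)⁻¹
          = t * ((x (-c) * y (-(-c)⁻¹) * x (-c)) * (t⁻¹ * y u * t) * (x (-c) * y (-(-c)⁻¹) * x (-c))⁻¹) * t⁻¹ := by group
        _ = _ := by
          rw [e2, hw _ _ (neg_ne_zero.2 hc), e0]
          congr 1
          rw [inv_neg]; ring
  have hw1 : Yk.w x y 1 = t := by
    have := Wn 0
    rw [pow_zero, pow_zero, one_mul] at this
    exact this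
  refine ⟨R, hw1, ?_⟩
  unfold Yk.h
  rw [← R.wi 1, hw1]
  have := Wn 1
  rw [pow_one, pow_one] at this
  show x κ * y (-κ⁻¹) * x κ * t⁻¹ = h
  rw [this]; group

variable {x : F → G}

theorem x_zero (hx : ∀ s s', x s * x s' = x (s + s')) : x 0 = 1 := by
  have := hx 0 0
  rw [add_zero] at this
  exact mul_eq_left.1 this

theorem x_zpow (hx : ∀ s s', x s * x s' = x (s + s')) (s : F) (n : ℤ) : x s ^ n = x (n • s) := by
  let f : Multiplicative F →* G :=
    { toFun := fun s => x (Multiplicative.toAdd s)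
      map_one' := x_zero hx
      map_mul' := fun a b => (hx _ _).symm }
  exact (map_zpow f (Multiplicative.ofAdd s) n).symm

theorem pow_act {a : G} {x0 : F} (ha : ∀ s, a * x s * a⁻¹ = x (x0 * s)) (n : ℕ) (s : F) : a ^ n * x s * (a ^ n)⁻¹ = x (x0 ^ n * s) := by
  induction n generalizing s with
  | zero => simp
  | succ n ih =>
    calc a ^ (n + 1) * x s * (a ^ (n + 1))⁻¹ = a ^ n * (a * x s * a⁻¹) * (a ^ n)⁻¹ := by rw [pow_succ]; group
      _ = _ := by rw [ha, ih]; congr 1; ring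

theorem pwn_x (hx : ∀ s s', x s * x s' = x (s + s')) {a : G} {x0 : F} (ha : ∀ s, a * x s * a⁻¹ = x (x0 * s)) (f : ℤ[X]) :
    pwn (x 1) a f.coeff (f.natDegree + 1) = x (aeval x0 f) := by
  rw [aeval_eq_sum_range]
  generalize f.natDegree + 1 = n
  induction n with
  | zero => simp only [pwn, Finset.range_zero, Finset.sum_empty]; exact (x_zero hx).symm
  | succ n ih =>
    rw [Finset.sum_range_succ, ← hx, ← ih]
    simp only [pwn]
    rw [x_zpow hx, pow_act ha]
    congr 2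
    simp [mul_comm]

variable {p : ℕ} [Fact p.Prime] [Algebra (ZMod p) F]

theorem exists_x {u a : G} {x0 : F} (hC : ∀ k l : ℤ, Commute (cu u a k) (cu u a l)) (hp : u ^ p = 1) {M : ℤ[X]}
    (hM : M.map (Int.castRingHom (ZMod p)) = minpoly (ZMod p) x0) (hw : pwn u a M.coeff (M.natDegree + 1) = 1)
    (hx0 : Algebra.adjoin (ZMod p) {x0} = ⊤) :
    ∃ x : F → G, (∀ s s', x s * x s' = x (s + s')) ∧ (∀ s, a * x s * a⁻¹ = x (x0 * s)) ∧ x 1 = u ∧
      ∀ s, x s ∈ Subgroup.closure (Set.range (cu u a)) := by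
  obtain ⟨E, h1, h2, h3, h4, h5, h6, h7, h8, h9⟩ := exists_E u a hC
  have hE0 : E 0 = 1 := by
    have := h1 0 0
    rw [add_zero] at this
    exact (mul_eq_left.1 this.symm)
  have hneg : ∀ f, E (-f) = (E f)⁻¹ := by
    intro f
    have := h1 (-f) f
    rw [neg_add_cancel, hE0] at this
    exact eq_inv_of_mul_eq_one_left this.symm
  have hEM : E M = 1 := by rw [h3]; exact hw
  have hEp : E (C (p : ℤ)) = 1 := by
    have := h5 p 1
    rw [mul_one, h6] at this
    rw [this, zpow_natCast, hp]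
  have hker : ∀ f, aeval x0 f = 0 → E f = 1 := by
    intro f hf
    obtain ⟨g, h, rfl⟩ := ker_ev hM f hf
    rw [h1, h4 M g hEM, h4 _ h hEp, one_mul]
  have hker' : ∀ f g, aeval x0 f = aeval x0 g → E f = E g := by
    intro f g hfg
    have := hker (f - g) (by rw [map_sub, hfg, sub_self])
    rw [sub_eq_add_neg, h1, hneg] at this
    exact mul_inv_eq_one.1 this
  choose fs hfs using fun s : F => ev_surj (p := p) hx0 s
  refine ⟨fun s => E (fs s), ?_, ?_, ?_, ?_⟩
  · intro s s'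
    show E (fs s) * E (fs s') = E (fs (s + s'))
    rw [← h1]
    exact hker' _ _ (by rw [map_add, hfs, hfs, hfs])
  · intro s
    show a * E (fs s) * a⁻¹ = E (fs (x0 * s))
    rw [← h2]
    exact hker' _ _ (by rw [map_mul, aeval_X, hfs, hfs])
  · show E (fs 1) = u
    rw [← h6]
    exact hker' _ _ (by rw [hfs, map_one])
  · intro s
    exact h9 _

theorem act_ext {b : G} {b0 x0 : F} {a : G} (hx : ∀ s s', x s * x s' = x (s + s')) (ha : ∀ s, a * x s * a⁻¹ = x (x0 * s))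
    (hx0 : Algebra.adjoin (ZMod p) {x0} = ⊤) (hab : Commute a b) (hb : b * x 1 * b⁻¹ = x b0) :
    ∀ s, b * x s * b⁻¹ = x (b0 * s) := by
  intro s
  obtain ⟨f, rfl⟩ := ev_surj (p := p) hx0 s
  induction f using Polynomial.induction_on with
  | C n =>
    have e : (aeval x0 (C n : ℤ[X])) = n • (1 : F) := by simp
    rw [e, ← x_zpow hx, ← conj_zpow, hb, x_zpow hx]
    congr 1
    rw [mul_smul_comm, mul_one]
  | add f g h1 h2 =>
    rw [map_add, ← hx, cj, h1, h2, hx, mul_add]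
  | monomial n c ih =>
    have e : aeval x0 (C c * X ^ (n + 1) : ℤ[X]) = x0 * aeval x0 (C c * X ^ n : ℤ[X]) := by
      rw [map_mul, map_mul, map_pow, map_pow, pow_succ, aeval_X]; ring
    have hab' : b * a = a * b := hab.eq.symm
    rw [e, ← ha]
    calc b * (a * x (aeval x0 (C c * X ^ n : ℤ[X])) * a⁻¹) * b⁻¹ = (b * a) * x (aeval x0 (C c * X ^ n : ℤ[X])) * (b * a)⁻¹ := by group
      _ = a * (b * x (aeval x0 (C c * X ^ n : ℤ[X])) * b⁻¹) * a⁻¹ := by rw [hab']; group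
      _ = _ := by rw [ih, ha]; congr 1; ring

end R1of

section pres

theorem lift_pwn {G : Type*} [Group G] (g : Fin 3 → G) (u a : FreeGroup (Fin 3)) (c : ℕ → ℤ) (n : ℕ) :
    FreeGroup.lift g (pwn u a c n) = pwn (FreeGroup.lift g u) (FreeGroup.lift g a) c n := pwn_map _ _ _ _ _

theorem pres_of {S : Type*} [Group S] (s : Fin 3 → S) (hgen : Subgroup.closure (Set.range s) = ⊤) (R : List (FreeGroup (Fin 3))) (n : ℕ)
    (hlen : R.length ≤ n) (hR : ∀ r ∈ R, FreeGroup.lift s r = 1)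
    (hφ : ∀ (G : Type) [Group G] (g : Fin 3 → G), (∀ r ∈ R, FreeGroup.lift g r = 1) → ∃ φ : S →* G, ∀ i, φ (s i) = g i) :
    ∃ rels : Finset (FreeGroup (Fin 3)), rels.card ≤ n ∧ Nonempty (PresentedGroup (↑rels : Set (FreeGroup (Fin 3))) ≃* S) := by
  classical
  refine ⟨R.toFinset, (List.toFinset_card_le R).trans hlen, ?_⟩
  have hs : ∀ r ∈ (↑R.toFinset : Set (FreeGroup (Fin 3))), FreeGroup.lift s r = 1 := fun r hr => hR r (by simpa using hr)
  let ψ : PresentedGroup (↑R.toFinset : Set (FreeGroup (Fin 3))) →* S := PresentedGroup.toGroup hs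
  have hψ : ∀ i, ψ (PresentedGroup.of i) = s i := fun i => PresentedGroup.toGroup.of hs
  obtain ⟨φ, h1⟩ := hφ (PresentedGroup (↑R.toFinset : Set (FreeGroup (Fin 3)))) (fun i => PresentedGroup.of i) (by
    intro r hr
    have e : FreeGroup.lift (fun i => (PresentedGroup.of i : PresentedGroup (↑R.toFinset : Set (FreeGroup (Fin 3))))) = PresentedGroup.mk _ := by
      ext i; simp [PresentedGroup.of]
    rw [e]
    exact PresentedGroup.mk_eq_one_iff.2 (Subgroup.subset_normalClosure (by simpa using hr)))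
  refine ⟨MonoidHom.toMulEquiv ψ φ ?_ ?_⟩
  · ext i
    show φ (ψ (PresentedGroup.of i)) = PresentedGroup.of i
    rw [hψ, h1]
  · apply MonoidHom.eq_of_eqOn_top
    have : Set.EqOn (ψ.comp φ) (MonoidHom.id S) (Set.range s) := by
      rintro _ ⟨i, rfl⟩
      show ψ (φ (s i)) = s i
      rw [h1, hψ]
    have h2 := MonoidHom.eqOn_closure this
    rw [hgen] at h2
    exact h2

end pres

end Cfsg.Agent.H14.Pr
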