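import Mathlib
import Cfsg.Agent.H14_PrB

set_option autoImplicit false
set_option linter.all false

/-!
Short presentations of `SL₂(q)` and `PSL₂(q)`.
-/

namespace Cfsg.Agent.H14.Pr

open Polynomial Cfsg.Agent.H14.Yk Cfsg.Agent.H13.SL Matrix

section core

variable {F : Type*} [Field F] [Finite F] {G : Type*} [Group G]

theorem core {κ : F} (hκ0 : κ ≠ 0) (hκ : ∀ c : F, c ≠ 0 → ∃ n : ℕ, c = κ ^ n) {u t h : G} {x : F → G} {i : ℕ}
    (hx : ∀ s s', x s * x s' = x (s + s')) (hx1 : x 1 = u) (hmem : ∀ s, x s ∈ Subgroup.closure (Set.range (cu u (h ^ i))))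
    (hh : ∀ s, h * x s * h⁻¹ = x (κ ^ 2 * s)) (h6 : t * h * t⁻¹ * h = 1) (h7 : t = u * (t * u * t⁻¹) * u)
    (h9 : h * t = x κ * (t * x κ⁻¹ * t⁻¹) * x κ) (h8 : Commute (t ^ 2) u) :
    ∃ φ : SpecialLinearGroup (Fin 2) F →* G, φ (U 1) = u ∧ φ (Yk.w (fun t : F => U t) (fun t : F => L t) 1) = t ∧
      φ (Yk.h (fun t : F => U t) (fun t : F => L t) κ) = h := by
  have h8h : Commute (t ^ 2) h := by
    have h1 : t * h * t⁻¹ = h⁻¹ := eq_inv_of_mul_eq_one_left h6
    have h2 : t * h⁻¹ * t⁻¹ = h := by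
      calc t * h⁻¹ * t⁻¹ = (t * h * t⁻¹)⁻¹ := by group
        _ = h := by rw [h1, inv_inv]
    have : t ^ 2 * h * (t ^ 2)⁻¹ = h := by
      calc t ^ 2 * h * (t ^ 2)⁻¹ = t * (t * h * t⁻¹) * t⁻¹ := by rw [pow_two]; group
        _ = h := by rw [h1, h2]
    exact (mul_inv_eq_iff_eq_mul.1 this)
  have h8' : ∀ s, t ^ 2 * x s * (t ^ 2)⁻¹ = x s := by
    intro s
    have hle : Subgroup.closure (Set.range (cu u (h ^ i))) ≤ Subgroup.centralizer {t ^ 2} := by
      refine (Subgroup.closure_le _).2 ?_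
      rintro _ ⟨k, rfl⟩
      refine Subgroup.mem_centralizer_singleton_iff.2 ?_
      have : Commute (t ^ 2) (cu u (h ^ i) k) := by
        unfold cu
        have hk : Commute (t ^ 2) ((h ^ i) ^ k) := (h8h.pow_right i).zpow_right k
        exact (hk.mul_right h8).mul_right hk.inv_right
      exact this.eq.symm
    have := Subgroup.mem_centralizer_singleton_iff.1 (hle (hmem s))
    rw [← this]; group
  subst hx1
  obtain ⟨R, hw1, hhκ⟩ := R1_of hκ0 hκ hx hh h6 h7 h9 h8'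
  obtain ⟨φ, f1, f2⟩ := R.exists_hom
  have hw : ∀ c : F, φ (Yk.w (fun t : F => U t) (fun t : F => L t) c) = Yk.w x (fun s => t * x (-s) * t⁻¹) c := by
    intro c
    show φ (U c * L (-c⁻¹) * U c) = _
    rw [map_mul, map_mul, f1, f2]; rfl
  refine ⟨φ, f1 1, ?_, ?_⟩
  · rw [hw, hw1]
  · unfold Yk.h at hhκ ⊢
    rw [map_mul, hw, hw, hhκ]

end core

section Sside

variable {F : Type*} [Field F] [Finite F] {G : Type*} [Group G] {x y : F → G} (R : R1 x y)
include R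

theorem s6 {κ : F} (hκ0 : κ ≠ 0) : Yk.w x y 1 * Yk.h x y κ * (Yk.w x y 1)⁻¹ * Yk.h x y κ = 1 := by
  rw [R.wh_c hκ0, ← R.hinv hκ0]; group

omit [Finite F] in
theorem wx1 (s : F) : Yk.w x y 1 * x s * (Yk.w x y 1)⁻¹ = y (-s) := by
  rw [R.w_x one_ne_zero]; simp

omit [Finite F] in
theorem s7 : Yk.w x y 1 = x 1 * (Yk.w x y 1 * x 1 * (Yk.w x y 1)⁻¹) * x 1 := by
  rw [wx1 R]; unfold Yk.w; rw [inv_one]

omit [Finite F] in
theorem s9 (κ : F) : Yk.h x y κ * Yk.w x y 1 = x κ * (Yk.w x y 1 * x κ⁻¹ * (Yk.w x y 1)⁻¹) * x κ := by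
  rw [wx1 R, ← R.w_h]; rfl

theorem s8 (s : F) : (Yk.w x y 1) ^ 2 * x s = x s * (Yk.w x y 1) ^ 2 := by
  rw [pow_two, R.ww]
  have := R.h_x (t := -1) (by simp) s
  rw [mul_inv_eq_iff_eq_mul] at this
  rw [this]; congr 2; simp

theorem s8' (s : F) : (Yk.w x y 1) ^ 2 * y s = y s * (Yk.w x y 1) ^ 2 := by
  rw [pow_two, R.ww]
  have := R.h_y (t := -1) (by simp) s
  rw [mul_inv_eq_iff_eq_mul] at this
  rw [this]; congr 2; simp

theorem hpow {κ : F} (hκ0 : κ ≠ 0) (n : ℕ) : Yk.h x y κ ^ n = Yk.h x y (κ ^ n) := by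
  induction n with
  | zero => rw [pow_zero, pow_zero, R.h1]
  | succ n ih => rw [pow_succ, ih, R.h_mul (pow_ne_zero n hκ0) hκ0, pow_succ]

end Sside

section gens

variable {F : Type*} [Field F] [Finite F]

/-- the three generators -/
def sS (κ : F) : Fin 3 → SpecialLinearGroup (Fin 2) F :=
  ![U 1, Yk.w (fun t : F => U t) (fun t : F => L t) 1, Yk.h (fun t : F => U t) (fun t : F => L t) κ]

variable {p : ℕ} [Fact p.Prime] [Algebra (ZMod p) F]

theorem U_pwn {κ : F} (hκ0 : κ ≠ 0) (i : ℕ) (f : ℤ[X]) :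
    pwn (sS κ 0) (sS κ 2 ^ i) f.coeff (f.natDegree + 1) = U (aeval ((κ ^ i) ^ 2) f) := by
  exact pwn_x (x := fun s : F => U s) U_mul (fun s => R1.hpow_x (K := F) R1_SL hκ0 i s) f

theorem gen {κ : F} (hκ0 : κ ≠ 0) (hA : Algebra.adjoin (ZMod p) {κ ^ 2} = ⊤) :
    Subgroup.closure (Set.range (sS κ)) = ⊤ := by
  rw [eq_top_iff, ← UL_gen, Subgroup.closure_le]
  have h0 : ∀ i, sS κ i ∈ Subgroup.closure (Set.range (sS κ)) := fun i => Subgroup.subset_closure ⟨i, rfl⟩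
  have hU : ∀ s : F, U s ∈ Subgroup.closure (Set.range (sS κ)) := by
    intro s
    obtain ⟨f, hf⟩ := ev_surj (p := p) hA s
    have := U_pwn hκ0 1 f
    rw [pow_one, pow_one, hf] at this
    rw [← this]
    generalize f.natDegree + 1 = n
    induction n with
    | zero => exact one_mem _
    | succ n ih =>
      refine mul_mem ih (mul_mem (mul_mem (pow_mem (h0 2) _) (zpow_mem (h0 0) _)) (inv_mem (pow_mem (h0 2) _)))
  rintro _ (⟨s, rfl⟩ | ⟨s, rfl⟩)
  · exact hU s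
  · have := wx1 (F := F) R1_SL (-s)
    rw [neg_neg] at this
    show L s ∈ _
    rw [← this]
    exact mul_mem (mul_mem (h0 1) (hU _)) (inv_mem (h0 1))

omit [Finite F] in
theorem w1sq : (Yk.w (fun t : F => U t) (fun t : F => L t) 1) ^ 2 = -1 := by
  rw [pow_two]
  apply Subtype.ext
  show ((U (1 : F) * L (-1⁻¹) * U 1) * (U 1 * L (-1⁻¹) * U 1) : Matrix.SpecialLinearGroup (Fin 2) F).1 = (-1 : Matrix.SpecialLinearGroup (Fin 2) F).1
  simp only [Matrix.SpecialLinearGroup.coe_mul, Matrix.SpecialLinearGroup.coe_neg, Matrix.SpecialLinearGroup.coe_one, coeU, coeL]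
  ext i j
  fin_cases i <;> fin_cases j <;> simp [Matrix.mul_apply, Fin.sum_univ_two]

omit [Finite F] in
theorem center_eq {z : SpecialLinearGroup (Fin 2) F} (hz : z ∈ Subgroup.center (SpecialLinearGroup (Fin 2) F)) : z = 1 ∨ z = -1 := by
  rw [Matrix.SpecialLinearGroup.mem_center_iff] at hz
  obtain ⟨r, hr, hz⟩ := hz
  rw [Fintype.card_fin] at hr
  have h1 : (r - 1) * (r + 1) = 0 := by linear_combination hr
  rcases mul_eq_zero.1 h1 with h | h
  · left
    ext i j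
    rw [← hz, sub_eq_zero.1 h]; simp
  · right
    ext i j
    rw [← hz, eq_neg_of_add_eq_zero_left h]
    fin_cases i <;> fin_cases j <;> simp

theorem slC {κ : F} (hgen : Subgroup.closure (Set.range (sS κ)) = ⊤) (R : List (FreeGroup (Fin 3))) (n : ℕ)
    (hlen : R.length ≤ n) (hR : ∀ r ∈ R, FreeGroup.lift (sS κ) r = 1)
    (hφ : ∀ (G : Type) [Group G] (g : Fin 3 → G), (∀ r ∈ R, FreeGroup.lift g r = 1) →
      ∃ φ : SpecialLinearGroup (Fin 2) F →* G, φ (U 1) = g 0 ∧ φ (Yk.w (fun t : F => U t) (fun t : F => L t) 1) = g 1 ∧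
      φ (Yk.h (fun t : F => U t) (fun t : F => L t) κ) = g 2) :
    ∃ rels : Finset (FreeGroup (Fin 3)), rels.card ≤ n ∧
      Nonempty (PresentedGroup (↑rels : Set (FreeGroup (Fin 3))) ≃* SpecialLinearGroup (Fin 2) F) := by
  refine pres_of (sS κ) hgen R n hlen hR fun G _ g hg => ?_
  obtain ⟨φ, h1, h2, h3⟩ := hφ G g hg
  refine ⟨φ, fun i => ?_⟩
  fin_cases i
  · exact h1
  · exact h2
  · exact h3

theorem pslC {κ : F} (hgen : Subgroup.closure (Set.range (sS κ)) = ⊤) (R : List (FreeGroup (Fin 3))) (n : ℕ)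
    (hlen : R.length ≤ n) (hR : ∀ r ∈ R, FreeGroup.lift (sS κ) r ∈ Subgroup.center (SpecialLinearGroup (Fin 2) F))
    (hφ : ∀ (G : Type) [Group G] (g : Fin 3 → G), (∀ r ∈ R, FreeGroup.lift g r = 1) →
      (g 1) ^ 2 = 1 ∧ ∃ φ : SpecialLinearGroup (Fin 2) F →* G, φ (U 1) = g 0 ∧ φ (Yk.w (fun t : F => U t) (fun t : F => L t) 1) = g 1 ∧
      φ (Yk.h (fun t : F => U t) (fun t : F => L t) κ) = g 2) :
    ∃ rels : Finset (FreeGroup (Fin 3)), rels.card ≤ n ∧
      Nonempty (PresentedGroup (↑rels : Set (FreeGroup (Fin 3))) ≃* Matrix.ProjectiveSpecialLinearGroup (Fin 2) F) := by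
  let π : SpecialLinearGroup (Fin 2) F →* Matrix.ProjectiveSpecialLinearGroup (Fin 2) F := QuotientGroup.mk' _
  refine pres_of (fun i => π (sS κ i)) ?_ R n hlen ?_ fun G _ g hg => ?_
  · have e : Set.range (fun i => π (sS κ i)) = π '' Set.range (sS κ) := by
      rw [← Set.range_comp]; rfl
    rw [e, ← MonoidHom.map_closure, hgen, ← MonoidHom.range_eq_map]
    exact MonoidHom.range_eq_top.2 (QuotientGroup.mk'_surjective _)
  · intro r hr
    have e : FreeGroup.lift (fun i => π (sS κ i)) = π.comp (FreeGroup.lift (sS κ)) := by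
      ext i; simp
    rw [e]
    show π (FreeGroup.lift (sS κ) r) = 1
    exact (QuotientGroup.eq_one_iff _).2 (hR r hr)
  · obtain ⟨h0, φ, h1, h2, h3⟩ := hφ G g hg
    refine ⟨QuotientGroup.lift _ φ ?_, fun i => ?_⟩
    · intro z hz
      rcases center_eq hz with rfl | rfl
      · exact map_one φ
      · show φ (-1) = 1
        rw [← w1sq, map_pow, h2, h0]
    · show φ (sS κ i) = g i
      fin_cases i
      · exact h1
      · exact h2
      · exact h3

end gens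

end Cfsg.Agent.H14.Pr
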