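import Mathlib
import Cfsg.Agent.H14_PrC

set_option autoImplicit false
set_option linter.all false

/-!
Short presentations of `SL₂(q)` and `PSL₂(q)`: odd and even cases.
-/

namespace Cfsg.Agent.H14.Pr

open Polynomial Cfsg.Agent.H14.Yk Cfsg.Agent.H13.SL Matrix

section odd

variable {F : Type*} [Field F] [Finite F] {p : ℕ} [Fact p.Prime] [Algebra (ZMod p) F]

theorem odd_core {κ : F} (hκ0 : κ ≠ 0) (hκ : ∀ c : F, c ≠ 0 → ∃ n : ℕ, c = κ ^ n) {i : ℕ}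
    (hA : Algebra.adjoin (ZMod p) {(κ ^ i) ^ 2} = ⊤) {M gκ gκ' : ℤ[X]}
    (hM : M.map (Int.castRingHom (ZMod p)) = minpoly (ZMod p) ((κ ^ i) ^ 2)) (hgκ : aeval ((κ ^ i) ^ 2) gκ = κ)
    (hgκ' : aeval ((κ ^ i) ^ 2) gκ' = κ⁻¹) {G : Type*} [Group G] {u t h : G}
    (hC : ∀ k l : ℤ, Commute (cu u (h ^ i) k) (cu u (h ^ i) l)) (hp : u ^ p = 1)
    (hw : pwn u (h ^ i) M.coeff (M.natDegree + 1) = 1)
    (hg : ∀ x : F → G, (∀ s s', x s * x s' = x (s + s')) → (∀ s, h ^ i * x s * (h ^ i)⁻¹ = x ((κ ^ i) ^ 2 * s)) → x 1 = u →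
      h * u * h⁻¹ = x (κ ^ 2)) (h6 : t * h * t⁻¹ * h = 1) (h7 : t = u * (t * u * t⁻¹) * u)
    (h9 : h * t = pwn u (h ^ i) gκ.coeff (gκ.natDegree + 1) * (t * pwn u (h ^ i) gκ'.coeff (gκ'.natDegree + 1) * t⁻¹) *
      pwn u (h ^ i) gκ.coeff (gκ.natDegree + 1)) (h8 : Commute (t ^ 2) u) :
    ∃ φ : SpecialLinearGroup (Fin 2) F →* G, φ (U 1) = u ∧ φ (Yk.w (fun t : F => U t) (fun t : F => L t) 1) = t ∧
      φ (Yk.h (fun t : F => U t) (fun t : F => L t) κ) = h := by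
  obtain ⟨x, hx, ha, hx1, hmem⟩ := exists_x hC hp hM hw hA
  have hh : ∀ s, h * x s * h⁻¹ = x (κ ^ 2 * s) :=
    act_ext hx ha hA ((Commute.refl h).pow_left i) (by rw [hx1]; exact hg x hx ha hx1)
  refine core hκ0 hκ hx hx1 hmem hh h6 h7 ?_ h8
  rw [h9, ← hx1, pwn_x hx ha, pwn_x hx ha, hgκ, hgκ']

theorem pwn_small {G : Type*} [Group G] {u a : G} {c : ℕ → ℤ} {d : ℕ} (hd : d = 1 ∨ d = 2) (hc : c d = 1) (h : pwn u a c (d + 1) = 1) :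
    cu u a 2 ∈ Subgroup.closure ({u, cu u a 1} : Set G) := by
  have hu : u ∈ Subgroup.closure ({u, cu u a 1} : Set G) := Subgroup.subset_closure (Or.inl rfl)
  have hv : cu u a 1 ∈ Subgroup.closure ({u, cu u a 1} : Set G) := Subgroup.subset_closure (Or.inr rfl)
  have e2 : cu u a 2 = a * cu u a 1 * a⁻¹ := by
    have := cu_conj u a 1 1
    rw [zpow_one] at this
    rw [this]; rfl
  rcases hd with rfl | rfl
  · simp only [pwn, hc, pow_zero, pow_one, one_mul, inv_one, mul_one, zpow_one] at h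
    rw [← cu_one] at h
    have h1 : cu u a 1 = (u ^ c 0)⁻¹ := eq_inv_of_mul_eq_one_right h
    have h2 : cu u a 2 = ((cu u a 1) ^ c 0)⁻¹ := by
      rw [e2]
      nth_rewrite 1 [h1]
      rw [cu_one, conj_zpow]; group
    rw [h2]
    exact inv_mem (zpow_mem hv _)
  · simp only [pwn, hc, pow_zero, pow_one, one_mul, inv_one, mul_one, zpow_one] at h
    have e : a ^ 2 * u * (a ^ 2)⁻¹ = cu u a 2 := by
      unfold cu
      rw [show (2 : ℤ) = ((2 : ℕ) : ℤ) from rfl, zpow_natCast]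
    rw [← conj_zpow, ← cu_one, e] at h
    rw [eq_inv_of_mul_eq_one_right h]
    exact inv_mem (mul_mem (zpow_mem hu _) (zpow_mem hv _))

end odd

section lists

/-- relations, general odd case -/
def RB (p i j : ℕ) (c : ℤ) (M g gκ gκ' : ℤ[X]) : List (FreeGroup (Fin 3)) :=
  [FreeGroup.of 0 ^ p,
   FreeGroup.of 0 * (FreeGroup.of 2 ^ i * FreeGroup.of 0 * (FreeGroup.of 2 ^ i)⁻¹) * (FreeGroup.of 0)⁻¹ * (FreeGroup.of 2 ^ i * FreeGroup.of 0 * (FreeGroup.of 2 ^ i)⁻¹)⁻¹,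
   FreeGroup.of 2 ^ j * FreeGroup.of 0 * (FreeGroup.of 2 ^ j)⁻¹ * (FreeGroup.of 0 ^ c * (FreeGroup.of 2 ^ i * FreeGroup.of 0 * (FreeGroup.of 2 ^ i)⁻¹))⁻¹,
   pwn (FreeGroup.of 0) (FreeGroup.of 2 ^ i) M.coeff (M.natDegree + 1),
   FreeGroup.of 2 * FreeGroup.of 0 * (FreeGroup.of 2)⁻¹ * (pwn (FreeGroup.of 0) (FreeGroup.of 2 ^ i) g.coeff (g.natDegree + 1))⁻¹,
   FreeGroup.of 1 * FreeGroup.of 2 * (FreeGroup.of 1)⁻¹ * FreeGroup.of 2,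
   FreeGroup.of 0 * (FreeGroup.of 1 * FreeGroup.of 0 * (FreeGroup.of 1)⁻¹) * FreeGroup.of 0 * (FreeGroup.of 1)⁻¹,
   pwn (FreeGroup.of 0) (FreeGroup.of 2 ^ i) gκ.coeff (gκ.natDegree + 1) *
     (FreeGroup.of 1 * pwn (FreeGroup.of 0) (FreeGroup.of 2 ^ i) gκ'.coeff (gκ'.natDegree + 1) * (FreeGroup.of 1)⁻¹) *
     pwn (FreeGroup.of 0) (FreeGroup.of 2 ^ i) gκ.coeff (gκ.natDegree + 1) * (FreeGroup.of 2 * FreeGroup.of 1)⁻¹]

/-- relations, small odd case -/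
def RA (p : ℕ) (M gκ gκ' : ℤ[X]) : List (FreeGroup (Fin 3)) :=
  [FreeGroup.of 0 ^ p,
   FreeGroup.of 0 * (FreeGroup.of 2 ^ 1 * FreeGroup.of 0 * (FreeGroup.of 2 ^ 1)⁻¹) * (FreeGroup.of 0)⁻¹ * (FreeGroup.of 2 ^ 1 * FreeGroup.of 0 * (FreeGroup.of 2 ^ 1)⁻¹)⁻¹,
   pwn (FreeGroup.of 0) (FreeGroup.of 2 ^ 1) M.coeff (M.natDegree + 1),
   FreeGroup.of 1 * FreeGroup.of 2 * (FreeGroup.of 1)⁻¹ * FreeGroup.of 2,
   FreeGroup.of 0 * (FreeGroup.of 1 * FreeGroup.of 0 * (FreeGroup.of 1)⁻¹) * FreeGroup.of 0 * (FreeGroup.of 1)⁻¹,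
   pwn (FreeGroup.of 0) (FreeGroup.of 2 ^ 1) gκ.coeff (gκ.natDegree + 1) *
     (FreeGroup.of 1 * pwn (FreeGroup.of 0) (FreeGroup.of 2 ^ 1) gκ'.coeff (gκ'.natDegree + 1) * (FreeGroup.of 1)⁻¹) *
     pwn (FreeGroup.of 0) (FreeGroup.of 2 ^ 1) gκ.coeff (gκ.natDegree + 1) * (FreeGroup.of 2 * FreeGroup.of 1)⁻¹]

/-- relations, even case -/
def RE (q j : ℕ) (M : ℤ[X]) : List (FreeGroup (Fin 3)) :=
  [FreeGroup.of 0 ^ 2,
   FreeGroup.of 2 ^ j * FreeGroup.of 0 * (FreeGroup.of 2 ^ j)⁻¹ * (FreeGroup.of 0 * (FreeGroup.of 2 ^ 1 * FreeGroup.of 0 * (FreeGroup.of 2 ^ 1)⁻¹))⁻¹,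
   FreeGroup.of 2 ^ q * (pwn (FreeGroup.of 0) (FreeGroup.of 2 ^ 1) M.coeff (M.natDegree + 1))⁻¹,
   FreeGroup.of 1 * FreeGroup.of 2 * (FreeGroup.of 1)⁻¹ * FreeGroup.of 2,
   FreeGroup.of 0 * (FreeGroup.of 1 * FreeGroup.of 0 * (FreeGroup.of 1)⁻¹) * FreeGroup.of 0 * (FreeGroup.of 1)⁻¹]

/-- relations, `q = 2` -/
def RT : List (FreeGroup (Fin 3)) :=
  [FreeGroup.of 0 ^ 2,
   FreeGroup.of 2,
   FreeGroup.of 0 * (FreeGroup.of 1 * FreeGroup.of 0 * (FreeGroup.of 1)⁻¹) * FreeGroup.of 0 * (FreeGroup.of 1)⁻¹]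

end lists

section listG

variable {F : Type*} [Field F] [Finite F] {p : ℕ} [Fact p.Prime] [Algebra (ZMod p) F]
  {κ : F} (hκ0 : κ ≠ 0) (hκ : ∀ c : F, c ≠ 0 → ∃ n : ℕ, c = κ ^ n)
include hκ0 hκ

theorem RB_G {i j : ℕ} {c : ℤ} (hc : c = 1 ∨ c = -1) {M g gκ gκ' : ℤ[X]} (hA : Algebra.adjoin (ZMod p) {(κ ^ i) ^ 2} = ⊤)
    (hM : M.map (Int.castRingHom (ZMod p)) = minpoly (ZMod p) ((κ ^ i) ^ 2)) (hg : aeval ((κ ^ i) ^ 2) g = κ ^ 2)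
    (hgκ : aeval ((κ ^ i) ^ 2) gκ = κ) (hgκ' : aeval ((κ ^ i) ^ 2) gκ' = κ⁻¹)
    {G : Type*} [Group G] (s : Fin 3 → G) (hs : ∀ r ∈ RB p i j c M g gκ gκ', FreeGroup.lift s r = 1) (h8 : Commute (s 1 ^ 2) (s 0)) :
    ∃ φ : SpecialLinearGroup (Fin 2) F →* G, φ (U 1) = s 0 ∧ φ (Yk.w (fun t : F => U t) (fun t : F => L t) 1) = s 1 ∧
      φ (Yk.h (fun t : F => U t) (fun t : F => L t) κ) = s 2 := by
  simp only [RB, List.mem_cons, List.not_mem_nil, or_false, forall_eq_or_imp, forall_eq, map_mul, map_inv, map_pow, map_zpow, lift_pwn, FreeGroup.lift_apply_of] at hs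
  obtain ⟨r1, r2, r3, r4, r5, r6, r7, r9⟩ := hs
  have hcomm : Commute (s 0) (cu (s 0) (s 2 ^ i) 1) := by
    rw [cu_one]
    have := mul_inv_eq_one.1 r2
    exact mul_inv_eq_iff_eq_mul.1 this
  have hC := trick (u := s 0) (a := s 2 ^ i) (b := s 2 ^ j) hc (((Commute.refl (s 2)).pow_left i).pow_right j) hcomm (by
    rw [cu_one]; exact mul_inv_eq_one.1 r3)
  refine odd_core hκ0 hκ hA hM hgκ hgκ' hC r1 r4 ?_ r6 ?_ ?_ h8
  · intro x hx ha hx1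
    rw [mul_inv_eq_one.1 r5, ← hx1, pwn_x hx ha, hg]
  · exact (mul_inv_eq_one.1 r7).symm
  · exact (mul_inv_eq_one.1 r9).symm

theorem RA_G {M gκ gκ' : ℤ[X]} (hA : Algebra.adjoin (ZMod p) {κ ^ 2} = ⊤)
    (hM : M.map (Int.castRingHom (ZMod p)) = minpoly (ZMod p) (κ ^ 2)) (hMm : M.Monic) (hd : M.natDegree = 1 ∨ M.natDegree = 2)
    (hgκ : aeval (κ ^ 2) gκ = κ) (hgκ' : aeval (κ ^ 2) gκ' = κ⁻¹)
    {G : Type*} [Group G] (s : Fin 3 → G) (hs : ∀ r ∈ RA p M gκ gκ', FreeGroup.lift s r = 1) (h8 : Commute (s 1 ^ 2) (s 0)) :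
    ∃ φ : SpecialLinearGroup (Fin 2) F →* G, φ (U 1) = s 0 ∧ φ (Yk.w (fun t : F => U t) (fun t : F => L t) 1) = s 1 ∧
      φ (Yk.h (fun t : F => U t) (fun t : F => L t) κ) = s 2 := by
  simp only [RA, List.mem_cons, List.not_mem_nil, or_false, forall_eq_or_imp, forall_eq, map_mul, map_inv, map_pow, map_zpow, lift_pwn, FreeGroup.lift_apply_of] at hs
  obtain ⟨r1, r2, r4, r6, r7, r9⟩ := hs
  have hcomm : Commute (s 0) (cu (s 0) (s 2 ^ 1) 1) := by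
    rw [cu_one]
    have := mul_inv_eq_one.1 r2
    exact mul_inv_eq_iff_eq_mul.1 this
  have hC := comm_small (u := s 0) (a := s 2 ^ 1) hcomm (pwn_small hd hMm.coeff_natDegree r4)
  refine odd_core (i := 1) hκ0 hκ (by rwa [pow_one]) (by rwa [pow_one]) (by rwa [pow_one]) (by rwa [pow_one]) hC r1 r4 ?_ r6 ?_ ?_ h8
  · intro x hx ha hx1
    have := ha 1
    rw [pow_one, pow_one, hx1, mul_one] at this
    exact this
  · exact (mul_inv_eq_one.1 r7).symm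
  · exact (mul_inv_eq_one.1 r9).symm

end listG

end Cfsg.Agent.H14.Pr
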