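import Mathlib
import Cfsg.Agent.H14_PrD

set_option autoImplicit false
set_option linter.all false

/-!
Short presentations of `SL₂(q)` and `PSL₂(q)`: even case.
-/

namespace Cfsg.Agent.H14.Pr

open Polynomial Cfsg.Agent.H14.Yk Cfsg.Agent.H13.SL Matrix

section even

variable {F : Type*} [Field F] {G : Type*} [Group G]

theorem W_even {κ : F} (hκ0 : κ ≠ 0) {x : F → G} {t h : G}
    (hh : ∀ s, h * x s * h⁻¹ = x (κ ^ 2 * s)) (h6 : t * h * t⁻¹ * h = 1)
    (h7 : t = x 1 * (t * x 1 * t⁻¹) * x 1) (m : ℕ) :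
    h ^ (2 * m) * t = x (κ ^ (2 * m)) * (t * x (κ ^ (2 * m))⁻¹ * t⁻¹) * x (κ ^ (2 * m)) := by
  have hti : t⁻¹ * h * t = h⁻¹ := by
    have h1 : t * h * t⁻¹ = h⁻¹ := eq_inv_of_mul_eq_one_left h6
    have h2 : h = t⁻¹ * h⁻¹ * t := by rw [← h1]; group
    calc t⁻¹ * h * t = (t⁻¹ * h⁻¹ * t)⁻¹ := by group
      _ = _ := by rw [← h2]
  have htt : h * t = t * h⁻¹ := by rw [← hti]; group
  have hxi : ∀ s, h⁻¹ * x s * h = x ((κ ^ 2)⁻¹ * s) := by
    intro s
    have := hh ((κ ^ 2)⁻¹ * s)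
    rw [mul_inv_cancel_left₀ (pow_ne_zero 2 hκ0)] at this
    rw [← this]; group
  induction m with
  | zero => rw [mul_zero, pow_zero, pow_zero, one_mul, inv_one]; exact h7
  | succ n ih =>
    have e1 : h * (x (κ ^ (2 * n)) * (t * x (κ ^ (2 * n))⁻¹ * t⁻¹) * x (κ ^ (2 * n))) * h⁻¹ =
        x (κ ^ (2 * (n + 1))) * (t * x (κ ^ (2 * (n + 1)))⁻¹ * t⁻¹) * x (κ ^ (2 * (n + 1))) := by
      rw [cj, cj, hh]
      have e2 : h * (t * x (κ ^ (2 * n))⁻¹ * t⁻¹) * h⁻¹ = t * x (κ ^ (2 * (n + 1)))⁻¹ * t⁻¹ := by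
        calc h * (t * x (κ ^ (2 * n))⁻¹ * t⁻¹) * h⁻¹ = (h * t) * x (κ ^ (2 * n))⁻¹ * (h * t)⁻¹ := by group
          _ = t * (h⁻¹ * x (κ ^ (2 * n))⁻¹ * h) * t⁻¹ := by rw [htt]; group
          _ = _ := by
            rw [hxi]
            congr 3
            rw [mul_add, pow_add, mul_inv, mul_comm]
      have e3 : κ ^ 2 * κ ^ (2 * n) = κ ^ (2 * (n + 1)) := by ring
      rw [e2, e3]
    rw [← e1, ← ih]
    calc h ^ (2 * (n + 1)) * t = h * h ^ (2 * n) * (h * t) := by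
          rw [mul_add, pow_add, ← pow_succ', mul_one, pow_two, pow_succ]; group
      _ = h * h ^ (2 * n) * (t * h⁻¹) := by rw [htt]
      _ = _ := by group

variable [Algebra (ZMod 2) F] [Finite F]

theorem even_core {κ : F} (hκ0 : κ ≠ 0) (hκ : ∀ c : F, c ≠ 0 → ∃ n : ℕ, c = κ ^ n)
    (hA : Algebra.adjoin (ZMod 2) {κ ^ 2} = ⊤) {M : ℤ[X]}
    (hM : M.map (Int.castRingHom (ZMod 2)) = minpoly (ZMod 2) (κ ^ 2)) {q m j : ℕ} (hq : q + 1 = 2 * m) (hκq : κ ^ (q + 1) = κ) {u t h : G}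
    (r1 : u ^ 2 = 1) (r2 : h ^ j * u * (h ^ j)⁻¹ = u * (h ^ 1 * u * (h ^ 1)⁻¹))
    (r3 : h ^ q = pwn u (h ^ 1) M.coeff (M.natDegree + 1))
    (h6 : t * h * t⁻¹ * h = 1) (h7 : t = u * (t * u * t⁻¹) * u) :
    t ^ 2 = 1 ∧ ∃ φ : SpecialLinearGroup (Fin 2) F →* G, φ (U 1) = u ∧ φ (Yk.w (fun t : F => U t) (fun t : F => L t) 1) = t ∧
      φ (Yk.h (fun t : F => U t) (fun t : F => L t) κ) = h := by
  haveI : Fact (Nat.Prime 2) := ⟨Nat.prime_two⟩
  have huu : u * u = 1 := by rw [← pow_two, r1]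
  have ht2 : t ^ 2 = 1 := by
    have hv : (t * u * t⁻¹) * (t * u * t⁻¹) = 1 := by
      rw [← cj, huu]; group
    calc t ^ 2 = t * t := pow_two t
      _ = (u * (t * u * t⁻¹) * u) * (u * (t * u * t⁻¹) * u) := by rw [← h7]
      _ = u * ((t * u * t⁻¹) * (u * u) * (t * u * t⁻¹)) * u := by group
      _ = 1 := by rw [huu, mul_one, hv, mul_one, huu]
  refine ⟨ht2, ?_⟩
  rw [pow_one] at r2 r3
  set v := h * u * h⁻¹ with hv
  have hvv : v * v = 1 := by rw [hv, ← cj, huu]; group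
  have hcomm : Commute u v := by
    have e1 : (u * v) * (u * v) = 1 := by rw [← r2, ← cj, huu]; group
    show u * v = v * u
    calc u * v = (u * v) * ((u * v) * (u * v)) * (v * u) * ((u * v) * (v * u))⁻¹ * (u * v)⁻¹ * (u * v)⁻¹ * (u * v) := by group
      _ = v * u := by
        have e2 : (u * v) * (v * u) = 1 := by
          calc (u * v) * (v * u) = u * (v * v) * u := by group
            _ = 1 := by rw [hvv, mul_one, huu]
        have e3 : (u * v)⁻¹ = v * u := inv_eq_of_mul_eq_one_right e2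
        have e4 : (u * v)⁻¹ = u * v := inv_eq_of_mul_eq_one_right e1
        rw [e1, e2, mul_one, inv_one, mul_one, e2, one_mul, e3, ← e3, e4, e1, one_mul]
  have hC := trick (u := u) (a := h) (b := h ^ j) (c := 1) (Or.inl rfl) ((Commute.refl h).pow_right j) (by rw [cu_one]; exact hcomm)
    (by rw [zpow_one, cu_one]; exact r2)
  obtain ⟨E, h1, h2, h3, h4, h5, hE1, hEc, h8, h9⟩ := exists_E u h hC
  have hb : ∀ f : ℤ[X], h ^ j * E f * (h ^ j)⁻¹ = E f * (h * E f * h⁻¹) := by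
    intro f
    induction f using Polynomial.induction_on with
    | C n =>
      have := h5 n 1
      rw [mul_one, hE1] at this
      rw [this, ← conj_zpow, r2, hcomm.mul_zpow, ← conj_zpow]
    | add f g hf hg =>
      rw [h1, cj, hf, hg, cj]
      have c1 : (h * E f * h⁻¹) * E g = E g * (h * E f * h⁻¹) := by rw [← h2]; exact (hEc _ _).eq
      calc E f * (h * E f * h⁻¹) * (E g * (h * E g * h⁻¹)) = E f * ((h * E f * h⁻¹) * E g) * (h * E g * h⁻¹) := by group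
        _ = _ := by rw [c1]; group
    | monomial n c ih =>
      have e : (C c * X ^ (n + 1) : ℤ[X]) = X * (C c * X ^ n) := by rw [pow_succ]; ring
      rw [e, h2]
      have hc : h ^ j * h = h * h ^ j := (Commute.refl h).pow_left j
      calc h ^ j * (h * E (C c * X ^ n) * h⁻¹) * (h ^ j)⁻¹ = (h ^ j * h) * E (C c * X ^ n) * (h ^ j * h)⁻¹ := by group
        _ = h * (h ^ j * E (C c * X ^ n) * (h ^ j)⁻¹) * h⁻¹ := by rw [hc]; group
        _ = _ := by rw [ih, cj]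
  have hw1 : h ^ q = 1 := by
    have e1 := hb M
    rw [h3 M, ← r3] at e1
    have e2 : h ^ j * h ^ q * (h ^ j)⁻¹ = h ^ q := by rw [← pow_add, add_comm, pow_add]; group
    have e3 : h * h ^ q * h⁻¹ = h ^ q := by rw [← pow_succ', pow_succ]; group
    rw [e2, e3] at e1
    exact (mul_eq_left.1 e1.symm)
  have hEM : pwn u h M.coeff (M.natDegree + 1) = 1 := by rw [← r3, hw1]
  obtain ⟨x, hx, ha, hx1, hmem⟩ := exists_x hC r1 hM hEM hA
  refine core (i := 1) hκ0 hκ hx hx1 (by rw [pow_one]; exact hmem) ha h6 h7 ?_ (by rw [ht2]; exact Commute.one_left u)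
  have := W_even hκ0 ha h6 (by rw [hx1]; exact h7) m
  rw [← hq, hκq, pow_succ, hw1, one_mul] at this
  exact this

end even

section listE

variable {F : Type*} [Field F] [Finite F] [Algebra (ZMod 2) F]
  {κ : F} (hκ0 : κ ≠ 0) (hκ : ∀ c : F, c ≠ 0 → ∃ n : ℕ, c = κ ^ n)
include hκ0 hκ

theorem RE_G (hA : Algebra.adjoin (ZMod 2) {κ ^ 2} = ⊤) {M : ℤ[X]}
    (hM : M.map (Int.castRingHom (ZMod 2)) = minpoly (ZMod 2) (κ ^ 2)) {q m j : ℕ} (hq : q + 1 = 2 * m) (hκq : κ ^ (q + 1) = κ)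
    {G : Type*} [Group G] (s : Fin 3 → G) (hs : ∀ r ∈ RE q j M, FreeGroup.lift s r = 1) :
    (s 1) ^ 2 = 1 ∧ ∃ φ : SpecialLinearGroup (Fin 2) F →* G, φ (U 1) = s 0 ∧ φ (Yk.w (fun t : F => U t) (fun t : F => L t) 1) = s 1 ∧
      φ (Yk.h (fun t : F => U t) (fun t : F => L t) κ) = s 2 := by
  simp only [RE, List.mem_cons, List.not_mem_nil, or_false, forall_eq_or_imp, forall_eq, map_mul, map_inv, map_pow, map_zpow, lift_pwn, FreeGroup.lift_apply_of] at hs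
  obtain ⟨r1, r2, r3, r6, r7⟩ := hs
  exact even_core hκ0 hκ hA hM hq hκq r1 (mul_inv_eq_one.1 r2) (mul_inv_eq_one.1 r3) r6 (mul_inv_eq_one.1 r7).symm

omit hκ0 hκ in
theorem RT_G (h2 : ∀ c : F, c = 0 ∨ c = 1)
    {G : Type*} [Group G] (s : Fin 3 → G) (hs : ∀ r ∈ RT, FreeGroup.lift s r = 1) :
    (s 1) ^ 2 = 1 ∧ ∃ φ : SpecialLinearGroup (Fin 2) F →* G, φ (U 1) = s 0 ∧ φ (Yk.w (fun t : F => U t) (fun t : F => L t) 1) = s 1 ∧
      φ (Yk.h (fun t : F => U t) (fun t : F => L t) 1) = s 2 := by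
  simp only [RT, List.mem_cons, List.not_mem_nil, or_false, forall_eq_or_imp, forall_eq, map_mul, map_inv, map_pow, map_zpow, lift_pwn, FreeGroup.lift_apply_of] at hs
  obtain ⟨r1, r2, r7⟩ := hs
  classical
  have huu : s 0 * s 0 = 1 := by rw [← pow_two, r1]
  have h7 := (mul_inv_eq_one.1 r7).symm
  have ht2 : (s 1) ^ 2 = 1 := by
    have hv : (s 1 * s 0 * (s 1)⁻¹) * (s 1 * s 0 * (s 1)⁻¹) = 1 := by
      rw [← cj, huu]; group
    calc (s 1) ^ 2 = s 1 * s 1 := pow_two _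
      _ = (s 0 * (s 1 * s 0 * (s 1)⁻¹) * s 0) * (s 0 * (s 1 * s 0 * (s 1)⁻¹) * s 0) := by rw [← h7]
      _ = s 0 * ((s 1 * s 0 * (s 1)⁻¹) * (s 0 * s 0) * (s 1 * s 0 * (s 1)⁻¹)) * s 0 := by group
      _ = 1 := by rw [huu, mul_one, hv, mul_one, huu]
  refine ⟨ht2, ?_⟩
  have h11 : (1 : F) + 1 = 0 := by
    rcases h2 (1 + 1) with h | h
    · exact h
    · exact absurd (by linear_combination h) (one_ne_zero (α := F))
  let x : F → G := fun c => if c = 0 then 1 else s 0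
  have x0 : x 0 = 1 := if_pos rfl
  have x1 : x 1 = s 0 := if_neg one_ne_zero
  have hx : ∀ a b : F, x a * x b = x (a + b) := by
    intro a b
    rcases h2 a with rfl | rfl <;> rcases h2 b with rfl | rfl
    · rw [add_zero, x0, mul_one]
    · rw [zero_add, x0, one_mul]
    · rw [add_zero, x0, mul_one]
    · rw [h11, x0, x1, huu]
  refine core (i := 0) (x := x) one_ne_zero ?_ hx x1 ?_ ?_ ?_ h7 ?_ (by rw [ht2]; exact Commute.one_left _)
  · intro c hc
    rcases h2 c with rfl | rfl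
    · exact absurd rfl hc
    · exact ⟨0, by simp⟩
  · intro c
    rcases h2 c with rfl | rfl
    · rw [x0]; exact one_mem _
    · rw [x1]; exact Subgroup.subset_closure ⟨0, cu_zero _ _⟩
  · intro c; rw [r2]; simp
  · rw [r2]; simp
  · rw [r2, one_mul, inv_one, x1]; exact h7

end listE

end Cfsg.Agent.H14.Pr
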