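import Mathlib
import Cfsg.Agent.H14_PrE

set_option autoImplicit false
set_option linter.all false

/-!
Short presentations of `SL₂(q)` and `PSL₂(q)`: field facts, relations hold, conclusion.
-/

namespace Cfsg.Agent.H14.Pr

open Polynomial Cfsg.Agent.H14.Yk Cfsg.Agent.H13.SL Matrix

section Sver

variable {F : Type*} [Field F] [Finite F] {κ : F} (hκ0 : κ ≠ 0)

omit [Finite F] in
theorem sS0 : sS κ 0 = U 1 := rfl

include hκ0 in
theorem sSh (n : ℕ) (s : F) : sS κ 2 ^ n * U s * (sS κ 2 ^ n)⁻¹ = U ((κ ^ n) ^ 2 * s) :=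
  R1.hpow_x (K := F) R1_SL hκ0 n s

include hκ0 in
theorem sS6 : sS κ 1 * sS κ 2 * (sS κ 1)⁻¹ * sS κ 2 = 1 := s6 (F := F) R1_SL hκ0

omit [Finite F] in
theorem sS7 : sS κ 1 = U 1 * (sS κ 1 * U 1 * (sS κ 1)⁻¹) * U 1 := s7 (F := F) R1_SL

omit [Finite F] in
theorem sS9 : sS κ 2 * sS κ 1 = U κ * (sS κ 1 * U κ⁻¹ * (sS κ 1)⁻¹) * U κ := s9 (F := F) R1_SL κ

theorem sS8 : (sS κ 1) ^ 2 ∈ Subgroup.center (Matrix.SpecialLinearGroup (Fin 2) F) := by
  have hle : (⊤ : Subgroup (Matrix.SpecialLinearGroup (Fin 2) F)) ≤ Subgroup.centralizer {(sS κ 1) ^ 2} := by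
    rw [← UL_gen, Subgroup.closure_le]
    rintro _ (⟨s, rfl⟩ | ⟨s, rfl⟩)
    · exact Subgroup.mem_centralizer_singleton_iff.2 (s8 (F := F) R1_SL s).symm
    · exact Subgroup.mem_centralizer_singleton_iff.2 (s8' (F := F) R1_SL s).symm
  rw [Subgroup.mem_center_iff]
  intro g
  exact Subgroup.mem_centralizer_singleton_iff.1 (hle (Subgroup.mem_top g))

omit [Finite F] in
theorem U_zpow (n : ℤ) : (U (1 : F)) ^ n = U (n : F) := by
  have := x_zpow (x := fun s : F => U s) U_mul 1 n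
  rw [this]
  show U (n • (1 : F)) = _
  congr 1; simp

omit [Finite F] in
theorem U_p {p : ℕ} [Fact p.Prime] [Algebra (ZMod p) F] : (U (1 : F)) ^ p = 1 := by
  have h0 := U_zpow (F := F) (p : ℤ)
  rw [zpow_natCast] at h0
  haveI : CharP F p := by
    haveI : CharP (ZMod p) p := ZMod.charP p
    exact charP_of_injective_algebraMap (FaithfulSMul.algebraMap_injective (ZMod p) F) p
  rw [h0, Int.cast_natCast, CharP.cast_eq_zero, U_zero]

variable {p : ℕ} [Fact p.Prime] [Algebra (ZMod p) F]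

omit [Finite F] in
theorem aeval_M {x0 : F} {M : ℤ[X]} (hM : M.map (Int.castRingHom (ZMod p)) = minpoly (ZMod p) x0) : aeval x0 M = 0 := by
  have := aeval_map_algebraMap (ZMod p) x0 M
  rw [show algebraMap ℤ (ZMod p) = Int.castRingHom (ZMod p) from rfl] at this
  rw [← this, hM, minpoly.aeval]

include hκ0

theorem RB_S {i j : ℕ} {c : ℤ} {M g gκ gκ' : ℤ[X]}
    (hj : (κ ^ j) ^ 2 = c + (κ ^ i) ^ 2)
    (hM : M.map (Int.castRingHom (ZMod p)) = minpoly (ZMod p) ((κ ^ i) ^ 2)) (hg : aeval ((κ ^ i) ^ 2) g = κ ^ 2)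
    (hgκ : aeval ((κ ^ i) ^ 2) gκ = κ) (hgκ' : aeval ((κ ^ i) ^ 2) gκ' = κ⁻¹) :
    ∀ r ∈ RB p i j c M g gκ gκ', FreeGroup.lift (sS κ) r = 1 := by
  simp only [RB, List.mem_cons, List.not_mem_nil, or_false, forall_eq_or_imp, forall_eq, map_mul, map_inv, map_pow, map_zpow, lift_pwn, FreeGroup.lift_apply_of,
    U_pwn hκ0]
  simp only [aeval_M hM, hg, hgκ, hgκ', sS0, sSh hκ0, U_zpow]
  refine ⟨U_p (p := p), ?_, ?_, U_zero, ?_, sS6 hκ0, ?_, ?_⟩
  · rw [U_inv, U_inv, U_mul, U_mul, U_mul, ← U_zero]; congr 1; ring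
  · rw [U_mul, U_inv, U_mul, hj, ← U_zero]; congr 1; ring
  · have := sSh hκ0 1 1
    rw [pow_one, pow_one] at this
    rw [this, U_inv, U_mul, ← U_zero]; congr 1; ring
  · rw [← sS7, mul_inv_cancel]
  · rw [← sS9, mul_inv_cancel]

theorem RA_S {M gκ gκ' : ℤ[X]}
    (hM : M.map (Int.castRingHom (ZMod p)) = minpoly (ZMod p) (κ ^ 2))
    (hgκ : aeval (κ ^ 2) gκ = κ) (hgκ' : aeval (κ ^ 2) gκ' = κ⁻¹) :
    ∀ r ∈ RA p M gκ gκ', FreeGroup.lift (sS κ) r = 1 := by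
  simp only [RA, List.mem_cons, List.not_mem_nil, or_false, forall_eq_or_imp, forall_eq, map_mul, map_inv, map_pow, map_zpow, lift_pwn, FreeGroup.lift_apply_of,
    U_pwn hκ0]
  simp only [pow_one κ, aeval_M hM, hgκ, hgκ', sS0, sSh hκ0, U_zpow]
  refine ⟨U_p (p := p), ?_, U_zero, sS6 hκ0, ?_, ?_⟩
  · rw [U_inv, U_inv, U_mul, U_mul, U_mul, ← U_zero]; congr 1; ring
  · rw [← sS7, mul_inv_cancel]
  · rw [← sS9, mul_inv_cancel]

omit [Algebra (ZMod p) F] [Fact p.Prime] in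
theorem RE_S [Algebra (ZMod 2) F] {q j : ℕ} {M : ℤ[X]} (hj : (κ ^ j) ^ 2 = 1 + κ ^ 2) (hq : κ ^ q = 1)
    (hM : M.map (Int.castRingHom (ZMod 2)) = minpoly (ZMod 2) (κ ^ 2)) :
    ∀ r ∈ RE q j M, FreeGroup.lift (sS κ) r = 1 := by
  haveI : Fact (Nat.Prime 2) := ⟨Nat.prime_two⟩
  simp only [RE, List.mem_cons, List.not_mem_nil, or_false, forall_eq_or_imp, forall_eq, map_mul, map_inv, map_pow, map_zpow, lift_pwn, FreeGroup.lift_apply_of,
    U_pwn hκ0]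
  simp only [pow_one κ, aeval_M hM, sS0, sSh hκ0, U_zpow]
  refine ⟨U_p (p := 2), ?_, ?_, sS6 hκ0, ?_⟩
  · rw [U_mul, U_inv, U_mul, hj, ← U_zero]; congr 1; ring
  · have : sS κ 2 ^ q = 1 := by
      have h1 := hpow (F := F) R1_SL hκ0 q
      rw [hq] at h1
      exact h1.trans (R1.h1 (K := F) R1_SL)
    rw [this, U_zero, inv_one, one_mul]
  · rw [← sS7, mul_inv_cancel]

omit [Algebra (ZMod p) F] [Fact p.Prime] hκ0 in
theorem RT_S [Algebra (ZMod 2) F] :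
    ∀ r ∈ RT, FreeGroup.lift (sS (1 : F)) r = 1 := by
  haveI : Fact (Nat.Prime 2) := ⟨Nat.prime_two⟩
  simp only [RT, List.mem_cons, List.not_mem_nil, or_false, forall_eq_or_imp, forall_eq, map_mul, map_inv, map_pow, map_zpow, lift_pwn, FreeGroup.lift_apply_of]
  refine ⟨U_p (p := 2), R1.h1 (K := F) R1_SL, ?_⟩
  have := sS7 (F := F) (κ := 1)
  rw [mul_inv_eq_one]
  exact this.symm

end Sver

section fld

variable {F : Type*} [Field F] [Finite F] {p : ℕ} [Fact p.Prime] [Algebra (ZMod p) F]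

theorem adj {κ : Fˣ} (hκ : ∀ x, x ∈ Subgroup.zpowers κ) {m : ℕ} (hm : m = 2 ∨ (m = 4 ∧ 9 < Nat.card F)) :
    Algebra.adjoin (ZMod p) {(κ : F) ^ m} = ⊤ := by
  have hK : (IntermediateField.adjoin (ZMod p) {(κ : F) ^ m}).toSubalgebra = Algebra.adjoin (ZMod p) {(κ : F) ^ m} :=
    IntermediateField.adjoin_simple_toSubalgebra_of_isAlgebraic (Algebra.IsAlgebraic.isAlgebraic _)
  rw [← hK]
  by_contra hne
  have hne' : IntermediateField.adjoin (ZMod p) {(κ : F) ^ m} ≠ ⊤ := by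
    intro h; apply hne; rw [h]; exact IntermediateField.top_toSubalgebra
  set K := IntermediateField.adjoin (ZMod p) {(κ : F) ^ m} with hKd
  have hz : (κ : F) ^ m ∈ K := IntermediateField.mem_adjoin_simple_self _ _
  have hc : Nat.card F = Nat.card K ^ Module.finrank K F := Module.natCard_eq_pow_finrank
  have h1 : Module.finrank K F ≠ 1 := by
    intro h; exact hne' (IntermediateField.finrank_eq_one_iff_eq_top.1 h)
  have h0 : 0 < Module.finrank K F := Module.finrank_pos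
  have hk2 : 2 ≤ Nat.card K := Finite.one_lt_card
  have hkk : Nat.card K * Nat.card K ≤ Nat.card F := by
    rw [hc, ← pow_two]
    exact Nat.pow_le_pow_right (by omega) (by omega)
  letI : Fintype K := Fintype.ofFinite K
  have h2 : (⟨(κ : F) ^ m, hz⟩ : K) ^ (Nat.card K - 1) = 1 := by
    rw [Nat.card_eq_fintype_card]
    exact FiniteField.pow_card_sub_one_eq_one _ (fun h => by
      have := congrArg Subtype.val h
      exact (pow_ne_zero m κ.ne_zero) this)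
  have h3 : (κ : F) ^ (m * (Nat.card K - 1)) = 1 := by
    rw [pow_mul]; exact congrArg Subtype.val h2
  have h4 : κ ^ (m * (Nat.card K - 1)) = 1 := Units.ext (by push_cast; exact h3)
  have h5 : orderOf κ = Nat.card F - 1 := by
    rw [orderOf_eq_card_of_forall_mem_zpowers hκ, Nat.card_units]
  have h6 := orderOf_dvd_of_pow_eq_one h4
  rw [h5] at h6
  have h7 := Nat.le_of_dvd (by rcases hm with rfl | ⟨rfl, _⟩ <;> omega) h6
  generalize Nat.card K = k at *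
  generalize Nat.card F = q at *
  obtain ⟨k', rfl⟩ : ∃ k', k = k' + 2 := ⟨k - 2, by omega⟩
  rcases hm with rfl | ⟨rfl, h9⟩
  · have : q ≤ 2 * (k' + 1) + 1 := by omega
    nlinarith
  · have : q ≤ 4 * (k' + 1) + 1 := by omega
    have hk : k' ≤ 1 := by nlinarith
    omega

theorem exists_data (hp2 : p ≠ 2) (he : 3 ≤ Module.finrank (ZMod p) F) {κ : Fˣ} (hκ : ∀ x, x ∈ Subgroup.zpowers κ)
    (hκ' : ∀ c : F, c ≠ 0 → ∃ n : ℕ, c = (κ : F) ^ n) :
    ∃ (i j : ℕ) (c : ℤ), (c = 1 ∨ c = -1) ∧ ((κ : F) ^ j) ^ 2 = c + ((κ : F) ^ i) ^ 2 ∧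
      Algebra.adjoin (ZMod p) {((κ : F) ^ i) ^ 2} = ⊤ := by
  have hp3 : 3 ≤ p := by
    have := (Fact.out : p.Prime).two_le
    omega
  have h9 : 9 < Nat.card F := by
    have h1 : Nat.card F = Nat.card (ZMod p) ^ Module.finrank (ZMod p) F := Module.natCard_eq_pow_finrank
    rw [h1, Nat.card_zmod]
    calc 9 < 3 ^ 3 := by norm_num
      _ ≤ p ^ 3 := Nat.pow_le_pow_left hp3 3
      _ ≤ _ := Nat.pow_le_pow_right (by omega) he
  have hA2 : Algebra.adjoin (ZMod p) {((κ : F) ^ 1) ^ 2} = ⊤ := by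
    rw [pow_one]; exact adj hκ (Or.inl rfl)
  have hA4 : Algebra.adjoin (ZMod p) {((κ : F) ^ 2) ^ 2} = ⊤ := by
    rw [← pow_mul]; exact adj hκ (Or.inr ⟨rfl, h9⟩)
  have ne : ∀ (x0 : F) (c : ℤ), Algebra.adjoin (ZMod p) {x0} = ⊤ → (c : F) + x0 ≠ 0 := by
    intro x0 c hA h0
    have h1 : x0 ∈ (⊥ : Subalgebra (ZMod p) F) := by
      rw [Algebra.mem_bot]
      exact ⟨((-c : ℤ) : ZMod p), by rw [map_intCast]; push_cast; linear_combination -h0⟩
    have h2 : Algebra.adjoin (ZMod p) {x0} ≤ (⊥ : Subalgebra (ZMod p) F) := Algebra.adjoin_le (Set.singleton_subset_iff.2 h1)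
    rw [hA, top_le_iff] at h2
    have h3 := Subalgebra.bot_eq_top_iff_finrank_eq_one.1 h2
    omega
  have sq : ∀ z : F, z ≠ 0 → IsSquare z → ∃ j : ℕ, ((κ : F) ^ j) ^ 2 = z := by
    rintro z hz ⟨d, rfl⟩
    obtain ⟨j, rfl⟩ := hκ' d (by rintro rfl; simp at hz)
    exact ⟨j, pow_two _⟩
  by_cases h1 : IsSquare ((1 : ℤ) + ((κ : F) ^ 1) ^ 2 : F)
  · obtain ⟨j, hj⟩ := sq _ (ne _ 1 hA2) h1
    exact ⟨1, j, 1, Or.inl rfl, hj, hA2⟩
  by_cases h2 : IsSquare ((-1 : ℤ) + ((κ : F) ^ 1) ^ 2 : F)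
  · obtain ⟨j, hj⟩ := sq _ (ne _ (-1) hA2) h2
    exact ⟨1, j, -1, Or.inr rfl, hj, hA2⟩
  have h3 := ns_mul h1 h2
  have e : ((1 : ℤ) + ((κ : F) ^ 1) ^ 2 : F) * ((-1 : ℤ) + ((κ : F) ^ 1) ^ 2) = (-1 : ℤ) + ((κ : F) ^ 2) ^ 2 := by
    push_cast; ring
  rw [e] at h3
  obtain ⟨j, hj⟩ := sq _ (ne _ (-1) hA4) h3
  exact ⟨2, j, -1, Or.inr rfl, hj, hA4⟩

end fld

end Cfsg.Agent.H14.Pr
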