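import Mathlib
import Cfsg.Agent.H14_PrF

set_option autoImplicit false
set_option linter.all false

/-!
Short presentations of `SL₂(q)` and `PSL₂(q)`: conclusion.
-/

namespace Cfsg.Agent.H14.Pr

open Polynomial Cfsg.Agent.H14.Yk Cfsg.Agent.H13.SL Matrix

section odd

variable {F : Type*} [Field F] [Finite F] {p : ℕ} [Fact p.Prime] [Algebra (ZMod p) F]

theorem finish {κ : F} (hgen : Subgroup.closure (Set.range (sS κ)) = ⊤) (R : List (FreeGroup (Fin 3))) (hlen : R.length ≤ 8)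
    (hS : ∀ r ∈ R, FreeGroup.lift (sS κ) r = 1)
    (hG : ∀ (G : Type) [Group G] (g : Fin 3 → G), (∀ r ∈ R, FreeGroup.lift g r = 1) → Commute (g 1 ^ 2) (g 0) →
      ∃ φ : SpecialLinearGroup (Fin 2) F →* G, φ (U 1) = g 0 ∧ φ (Yk.w (fun t : F => U t) (fun t : F => L t) 1) = g 1 ∧
      φ (Yk.h (fun t : F => U t) (fun t : F => L t) κ) = g 2) :
    (∃ rels : Finset (FreeGroup (Fin 3)), rels.card ≤ 9 ∧
      Nonempty (PresentedGroup (↑rels : Set (FreeGroup (Fin 3))) ≃* SpecialLinearGroup (Fin 2) F)) ∧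
    (∃ rels : Finset (FreeGroup (Fin 3)), rels.card ≤ 9 ∧
      Nonempty (PresentedGroup (↑rels : Set (FreeGroup (Fin 3))) ≃* Matrix.ProjectiveSpecialLinearGroup (Fin 2) F)) := by
  constructor
  · refine slC hgen (FreeGroup.of 1 ^ 2 * FreeGroup.of 0 * (FreeGroup.of 1 ^ 2)⁻¹ * (FreeGroup.of 0)⁻¹ :: R) 9 (by rw [List.length_cons]; omega) ?_ ?_
    · intro r hr
      rcases List.mem_cons.1 hr with rfl | hr
      · simp only [map_mul, map_inv, map_pow, FreeGroup.lift_apply_of]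
        have := Subgroup.mem_center_iff.1 (sS8 (F := F) (κ := κ)) (sS κ 0)
        rw [← this]; group
      · exact hS r hr
    · intro G _ g hg
      refine hG G g (fun r hr => hg r (List.mem_cons_of_mem _ hr)) ?_
      have := hg _ List.mem_cons_self
      simp only [map_mul, map_inv, map_pow, FreeGroup.lift_apply_of] at this
      exact mul_inv_eq_iff_eq_mul.1 (mul_inv_eq_one.1 this)
  · refine pslC hgen (FreeGroup.of 1 ^ 2 :: R) 9 (by rw [List.length_cons]; omega) ?_ ?_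
    · intro r hr
      rcases List.mem_cons.1 hr with rfl | hr
      · simp only [map_pow, FreeGroup.lift_apply_of]
        exact sS8
      · rw [hS r hr]; exact one_mem _
    · intro G _ g hg
      have := hg _ List.mem_cons_self
      simp only [map_pow, FreeGroup.lift_apply_of] at this
      exact ⟨this, hG G g (fun r hr => hg r (List.mem_cons_of_mem _ hr)) (by rw [this]; exact Commute.one_left _)⟩

theorem finishE {κ : F} (hgen : Subgroup.closure (Set.range (sS κ)) = ⊤) (R : List (FreeGroup (Fin 3))) (hlen : R.length ≤ 5)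
    (hS : ∀ r ∈ R, FreeGroup.lift (sS κ) r = 1)
    (hG : ∀ (G : Type) [Group G] (g : Fin 3 → G), (∀ r ∈ R, FreeGroup.lift g r = 1) → g 1 ^ 2 = 1 ∧
      ∃ φ : SpecialLinearGroup (Fin 2) F →* G, φ (U 1) = g 0 ∧ φ (Yk.w (fun t : F => U t) (fun t : F => L t) 1) = g 1 ∧
      φ (Yk.h (fun t : F => U t) (fun t : F => L t) κ) = g 2) :
    (∃ rels : Finset (FreeGroup (Fin 3)), rels.card ≤ 9 ∧
      Nonempty (PresentedGroup (↑rels : Set (FreeGroup (Fin 3))) ≃* SpecialLinearGroup (Fin 2) F)) ∧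
    (∃ rels : Finset (FreeGroup (Fin 3)), rels.card ≤ 5 ∧
      Nonempty (PresentedGroup (↑rels : Set (FreeGroup (Fin 3))) ≃* Matrix.ProjectiveSpecialLinearGroup (Fin 2) F)) := by
  constructor
  · exact slC hgen R 9 (hlen.trans (by norm_num)) hS (fun G _ g hg => (hG G g hg).2)
  · exact pslC hgen R 5 hlen (fun r hr => by rw [hS r hr]; exact one_mem _) hG

omit [Algebra (ZMod p) F] [Fact p.Prime] in
theorem exists_kappa : ∃ κ : Fˣ, (∀ x, x ∈ Subgroup.zpowers κ) ∧ ∀ c : F, c ≠ 0 → ∃ n : ℕ, c = (κ : F) ^ n := by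
  obtain ⟨κ, hκ⟩ := IsCyclic.exists_generator (α := Fˣ)
  refine ⟨κ, hκ, fun c hc => ?_⟩
  have h1 := hκ (Units.mk0 c hc)
  rw [← mem_powers_iff_mem_zpowers] at h1
  obtain ⟨n, hn⟩ := h1
  refine ⟨n, ?_⟩
  have := congrArg Units.val hn
  push_cast at this
  exact this.symm

theorem odd_case (hp2 : p ≠ 2) :
    (∃ rels : Finset (FreeGroup (Fin 3)), rels.card ≤ 9 ∧
      Nonempty (PresentedGroup (↑rels : Set (FreeGroup (Fin 3))) ≃* SpecialLinearGroup (Fin 2) F)) ∧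
    (∃ rels : Finset (FreeGroup (Fin 3)), rels.card ≤ 9 ∧
      Nonempty (PresentedGroup (↑rels : Set (FreeGroup (Fin 3))) ≃* Matrix.ProjectiveSpecialLinearGroup (Fin 2) F)) := by
  obtain ⟨κ, hκ, hκ'⟩ := exists_kappa (F := F)
  have hA := adj (p := p) hκ (m := 2) (Or.inl rfl)
  have hgen := gen (p := p) (κ := (κ : F)) κ.ne_zero hA
  by_cases he : 3 ≤ Module.finrank (ZMod p) F
  · obtain ⟨i, j, c, hc, hj, hAi⟩ := exists_data hp2 he hκ hκ'
    obtain ⟨M, hM, -, -⟩ := exists_M (p := p) (((κ : F) ^ i) ^ 2)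
    obtain ⟨g, hg⟩ := ev_surj (p := p) hAi ((κ : F) ^ 2)
    obtain ⟨gκ, hgκ⟩ := ev_surj (p := p) hAi (κ : F)
    obtain ⟨gκ', hgκ'⟩ := ev_surj (p := p) hAi (κ : F)⁻¹
    exact finish hgen (RB p i j c M g gκ gκ') (by simp [RB]) (RB_S κ.ne_zero hj hM hg hgκ hgκ')
      (fun G _ s hs h8 => RB_G κ.ne_zero hκ' hc hAi hM hg hgκ hgκ' s hs h8)
  · obtain ⟨M, hM, hMm, hMd⟩ := exists_M (p := p) ((κ : F) ^ 2)
    obtain ⟨gκ, hgκ⟩ := ev_surj (p := p) hA (κ : F)
    obtain ⟨gκ', hgκ'⟩ := ev_surj (p := p) hA (κ : F)⁻¹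
    have hd : M.natDegree = 1 ∨ M.natDegree = 2 := by
      rw [hMd]
      have h1 := minpoly.natDegree_le (A := ZMod p) ((κ : F) ^ 2)
      have h2 := minpoly.natDegree_pos (A := ZMod p) (Algebra.IsIntegral.isIntegral ((κ : F) ^ 2))
      omega
    exact finish hgen (RA p M gκ gκ') (by simp [RA]) (RA_S κ.ne_zero hM hgκ hgκ')
      (fun G _ s hs h8 => RA_G κ.ne_zero hκ' hA hM hMm hd hgκ hgκ' s hs h8)

end odd

theorem even_case {F : Type*} [Field F] [Finite F] [Algebra (ZMod 2) F] :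
    (∃ rels : Finset (FreeGroup (Fin 3)), rels.card ≤ 9 ∧
      Nonempty (PresentedGroup (↑rels : Set (FreeGroup (Fin 3))) ≃* SpecialLinearGroup (Fin 2) F)) ∧
    (∃ rels : Finset (FreeGroup (Fin 3)), rels.card ≤ 5 ∧
      Nonempty (PresentedGroup (↑rels : Set (FreeGroup (Fin 3))) ≃* Matrix.ProjectiveSpecialLinearGroup (Fin 2) F)) := by
  haveI : Fact (Nat.Prime 2) := ⟨Nat.prime_two⟩
  haveI : CharP F 2 := charP_of_injective_algebraMap (FaithfulSMul.algebraMap_injective (ZMod 2) F) 2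
  obtain ⟨κ, hκ, hκ'⟩ := exists_kappa (F := F)
  have hA := adj (p := 2) hκ (m := 2) (Or.inl rfl)
  have hgen := gen (p := 2) (κ := (κ : F)) κ.ne_zero hA
  by_cases h1 : (κ : F) = 1
  · rw [h1] at hgen hκ'
    refine finishE hgen RT (by simp [RT]) RT_S (fun G _ s hs => RT_G ?_ s hs)
    intro c
    by_cases hc : c = 0
    · exact Or.inl hc
    · obtain ⟨n, hn⟩ := hκ' c hc
      right; rw [hn, one_pow]
  · obtain ⟨M, hM, -, -⟩ := exists_M (p := 2) ((κ : F) ^ 2)
    have h2 : (1 : F) + (κ : F) ^ 2 ≠ 0 := by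
      intro h
      apply h1
      have h3 : ((κ : F) - 1) ^ 2 = 0 := by
        have : (2 : F) = 0 := CharTwo.two_eq_zero
        linear_combination h - (κ : F) * this
      have h4 := pow_eq_zero_iff (two_ne_zero) |>.1 h3
      linear_combination h4
    obtain ⟨j, hj⟩ : ∃ j : ℕ, ((κ : F) ^ j) ^ 2 = 1 + (κ : F) ^ 2 := by
      letI : Fintype F := Fintype.ofFinite F
      obtain ⟨d, hd⟩ := FiniteField.isSquare_of_char_two (ringChar.eq F 2) (1 + (κ : F) ^ 2)
      obtain ⟨j, rfl⟩ := hκ' d (by rintro rfl; apply h2; rw [hd, mul_zero])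
      exact ⟨j, by rw [hd, pow_two]⟩
    have hc : (κ : F) ^ (Nat.card F - 1) = 1 := by
      letI : Fintype F := Fintype.ofFinite F
      rw [Nat.card_eq_fintype_card]
      exact FiniteField.pow_card_sub_one_eq_one _ κ.ne_zero
    have hq1 : 1 ≤ Nat.card F := Nat.card_pos
    obtain ⟨m, hm⟩ : ∃ m, Nat.card F = 2 * m := by
      have h3 : Nat.card F = Nat.card (ZMod 2) ^ Module.finrank (ZMod 2) F := Module.natCard_eq_pow_finrank
      rw [Nat.card_zmod] at h3
      have h4 : 0 < Module.finrank (ZMod 2) F := Module.finrank_pos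
      obtain ⟨e, he⟩ := Nat.exists_eq_succ_of_ne_zero h4.ne'
      exact ⟨2 ^ e, by rw [h3, he, Nat.succ_eq_add_one, pow_succ]; ring⟩
    refine finishE hgen (RE (Nat.card F - 1) j M) (by simp [RE]) (RE_S κ.ne_zero hj hc hM)
      (fun G _ s hs => RE_G κ.ne_zero hκ' hA hM (m := m) (by omega) (by rw [pow_succ, hc, one_mul]) s hs)

theorem s2286 {F : Type*} [Field F] [Fintype F] :
    (∃ rels : Finset (FreeGroup (Fin 3)), rels.card ≤ 9 ∧ Nonempty (PresentedGroup (↑rels : Set (FreeGroup (Fin 3))) ≃* Matrix.SpecialLinearGroup (Fin 2) F)) ∧ (∃ rels : Finset (FreeGroup (Fin 3)), rels.card ≤ 9 ∧ Nonempty (PresentedGroup (↑rels : Set (FreeGroup (Fin 3))) ≃* Matrix.ProjectiveSpecialLinearGroup (Fin 2) F)) ∧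
    (CharP F 2 → ∃ rels : Finset (FreeGroup (Fin 3)), rels.card ≤ 5 ∧ Nonempty (PresentedGroup (↑rels : Set (FreeGroup (Fin 3))) ≃* Matrix.ProjectiveSpecialLinearGroup (Fin 2) F)) := by
  obtain ⟨p, hp⟩ := CharP.exists F
  haveI : Fact p.Prime := ⟨CharP.char_is_prime F p⟩
  by_cases h2 : p = 2
  · subst h2
    letI : Algebra (ZMod 2) F := ZMod.algebra F 2
    obtain ⟨h1, rels, h3, h4⟩ := even_case (F := F)
    exact ⟨h1, ⟨rels, h3.trans (by norm_num), h4⟩, fun _ => ⟨rels, h3, h4⟩⟩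
  · letI : Algebra (ZMod p) F := ZMod.algebra F p
    obtain ⟨h1, h3⟩ := odd_case (F := F) h2
    exact ⟨h1, h3, fun h => absurd (CharP.eq F hp h) h2⟩

end Cfsg.Agent.H14.Pr
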