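import Mathlib
import Cfsg.Agent.H14_PrF
import Cfsg.Agent.H14_YE

set_option autoImplicit false
set_option linter.all false

/-!
A presentation of `SL₃(q)` with four generators and fourteen relations.
-/

namespace Cfsg.Agent.H14.Ps

open Polynomial Cfsg.Agent.H14.Pr Cfsg.Agent.H14.Yk

structure Dat {G : Type*} [Group G] (m0 : ℕ) (u s c k : G) : Prop where
  s2 : s * s = 1
  sc : s * c * s⁻¹ = c ^ 2
  K1 : (c * s) * k * (c * s)⁻¹ = k⁻¹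
  Kc : k * (c * k * c⁻¹) = (c * k * c⁻¹) * k
  K2 : k * (c * k * c⁻¹) * (c⁻¹ * k * c) = 1
  N2 : (c⁻¹ * k * c) * u * (c⁻¹ * k * c)⁻¹ = k * u * k⁻¹
  P1 : u * (c * u * c⁻¹) * u⁻¹ * (c * u * c⁻¹)⁻¹ = (c⁻¹ * s) * u * (c⁻¹ * s)⁻¹
  Pk : (k * u * k⁻¹) * (c * u * c⁻¹) * (k * u * k⁻¹)⁻¹ * (c * u * c⁻¹)⁻¹ = (c⁻¹ * s) * (k * u * k⁻¹) * (c⁻¹ * s)⁻¹
  S : s = k ^ m0 * (u * (s * u * s⁻¹)⁻¹ * u)
  H : k = ((c⁻¹ * s) * (k * u * k⁻¹) * (c⁻¹ * s)⁻¹ * (c⁻¹ * (k⁻¹ * u * k) * c)⁻¹ * ((c⁻¹ * s) * (k * u * k⁻¹) * (c⁻¹ * s)⁻¹)) *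
    ((c⁻¹ * s) * u * (c⁻¹ * s)⁻¹ * (c⁻¹ * u * c)⁻¹ * ((c⁻¹ * s) * u * (c⁻¹ * s)⁻¹))⁻¹

section grp

variable {G : Type*} [Group G] {m0 : ℕ} {u s c k : G} (D : Dat m0 u s c k)
include D

theorem sinv : s⁻¹ = s := inv_eq_of_mul_eq_one_right D.s2

theorem c3 : c * c * c = 1 := by
  have e1 : s * (s * c * s⁻¹) * s⁻¹ = c := by
    calc s * (s * c * s⁻¹) * s⁻¹ = (s * s) * c * (s * s)⁻¹ := by group
      _ = c := by rw [D.s2]; group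
  have e2 : s * (s * c * s⁻¹) * s⁻¹ = c * c * c * c := by
    rw [D.sc]
    calc s * c ^ 2 * s⁻¹ = (s * c * s⁻¹) * (s * c * s⁻¹) := by rw [pow_two]; group
      _ = _ := by rw [D.sc, pow_two]; group
  rw [e1] at e2
  exact (mul_eq_right.1 e2.symm)

theorem cc : c * c = c⁻¹ := eq_inv_of_mul_eq_one_left (c3 D)

theorem s_c : s * c = c⁻¹ * s := by
  have := mul_inv_eq_iff_eq_mul.1 D.sc
  rw [this, pow_two, cc D]

theorem s_ci : s * c⁻¹ = c * s := by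
  have e : s * c⁻¹ = (c * s⁻¹)⁻¹ := by group
  rw [e, sinv D]
  have h1 : (c * s) * (s * c⁻¹) = 1 := by
    calc (c * s) * (s * c⁻¹) = c * (s * s) * c⁻¹ := by group
      _ = 1 := by rw [D.s2]; group
  have h2 : (c * s) * (c * s) = 1 := by
    calc (c * s) * (c * s) = c * (s * c) * s := by group
      _ = s * s := by rw [s_c D]; group
      _ = 1 := D.s2
  exact inv_eq_of_mul_eq_one_right h2

omit D in
/-- transporter elements -/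
def gm (s c : G) : Fin 3 → Fin 3 → G := ![![1, 1, c⁻¹ * s], ![s, 1, c], ![c⁻¹, c * s, 1]]

theorem c_gm (i j : Fin 3) (h : i ≠ j) : c * gm s c i j = gm s c (i + 1) (j + 1) := by
  fin_cases i <;> fin_cases j <;> first | exact absurd rfl h | skip
  · show c * 1 = c; group
  · show c * (c⁻¹ * s) = s; group
  · show c * s = c * s; rfl
  · show c * c = c⁻¹; exact cc D
  · show c * c⁻¹ = 1; group
  · show c * (c * s) = c⁻¹ * s; rw [← mul_assoc, cc D]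

theorem s_gm (i j : Fin 3) (h : i ≠ j) : s * gm s c i j = gm s c (Equiv.swap 0 1 i) (Equiv.swap 0 1 j) := by
  fin_cases i <;> fin_cases j <;> first | exact absurd rfl h | skip
  · show s * 1 = s; group
  · show s * (c⁻¹ * s) = c; rw [← mul_assoc, s_ci D, mul_assoc, D.s2, mul_one]
  · show s * s = 1; exact D.s2
  · show s * c = c⁻¹ * s; exact s_c D
  · show s * c⁻¹ = c * s; exact s_ci D
  · show s * (c * s) = c⁻¹; rw [← mul_assoc, s_c D, mul_assoc, D.s2, mul_one]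

omit D in
def XX {F : Type*} (s c : G) (x : F → G) (i j : Fin 3) (a : F) : G := gm s c i j * x a * (gm s c i j)⁻¹

theorem c_XX {F : Type*} (x : F → G) {i j : Fin 3} (h : i ≠ j) (a : F) : c * XX s c x i j a * c⁻¹ = XX s c x (i + 1) (j + 1) a := by
  unfold XX
  rw [← c_gm D i j h]; group

theorem s_XX {F : Type*} (x : F → G) {i j : Fin 3} (h : i ≠ j) (a : F) : s * XX s c x i j a * s⁻¹ = XX s c x (Equiv.swap 0 1 i) (Equiv.swap 0 1 j) a := by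
  unfold XX
  rw [← s_gm D i j h]; group

end grp

section act

variable {F : Type*} [Field F] [Finite F] {G : Type*} [Group G] {m0 : ℕ} {u s c k : G} (D : Dat m0 u s c k)
  {p : ℕ} [Fact p.Prime] [Algebra (ZMod p) F] {κ : F} (hκ0 : κ ≠ 0) (hA : Algebra.adjoin (ZMod p) {κ} = ⊤)
  {x : F → G} (hx : ∀ a b, x a * x b = x (a + b)) (hk : ∀ a, k * x a * k⁻¹ = x (κ * a)) (hx1 : x 1 = u)

omit [Finite F] in
include D in
theorem k2_comm : Commute k (c⁻¹ * k * c) := by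
  have := D.Kc
  have h1 : Commute (c⁻¹ * k * c⁻¹⁻¹) (c⁻¹ * (c * k * c⁻¹) * c⁻¹⁻¹) := comm_conj.2 this
  have e1 : c⁻¹ * k * c⁻¹⁻¹ = c⁻¹ * k * c := by group
  have e2 : c⁻¹ * (c * k * c⁻¹) * c⁻¹⁻¹ = k := by group
  rw [e1, e2] at h1
  exact h1.symm

include D hA hx hk hx1 in
theorem k2_x (a : F) : (c⁻¹ * k * c) * x a * (c⁻¹ * k * c)⁻¹ = x (κ * a) :=
  act_ext hx hk hA (k2_comm D) (by rw [hx1, D.N2, ← hx1, hk, mul_one]) a

omit [Finite F] in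
theorem inv_act {g : G} {x : F → G} {l : F} (hl : l ≠ 0) (h : ∀ a, g * x a * g⁻¹ = x (l * a)) (a : F) : g⁻¹ * x a * g⁻¹⁻¹ = x (l⁻¹ * a) := by
  have := h (l⁻¹ * a)
  rw [mul_inv_cancel_left₀ hl] at this
  rw [← this]; group

include D hA hx hk hx1 hκ0 in
theorem k1_x (a : F) : (c * k * c⁻¹) * x a * (c * k * c⁻¹)⁻¹ = x ((κ ^ 2)⁻¹ * a) := by
  have e : c * k * c⁻¹ = k⁻¹ * (c⁻¹ * k * c)⁻¹ := by
    have := D.K2
    calc c * k * c⁻¹ = k⁻¹ * (k * (c * k * c⁻¹) * (c⁻¹ * k * c)) * (c⁻¹ * k * c)⁻¹ := by group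
      _ = _ := by rw [this, mul_one]
  rw [e]
  calc k⁻¹ * (c⁻¹ * k * c)⁻¹ * x a * (k⁻¹ * (c⁻¹ * k * c)⁻¹)⁻¹ = k⁻¹ * ((c⁻¹ * k * c)⁻¹ * x a * (c⁻¹ * k * c)⁻¹⁻¹) * k⁻¹⁻¹ := by group
    _ = _ := by
      rw [inv_act hκ0 (k2_x D hA hx hk hx1), inv_act hκ0 hk]
      congr 1; field_simp

omit [Finite F] in
include D in
theorem s_k : s * k * s⁻¹ = (c⁻¹ * k * c)⁻¹ := by
  have := D.K1
  calc s * k * s⁻¹ = c⁻¹ * ((c * s) * k * (c * s)⁻¹) * c := by group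
    _ = _ := by rw [this]; group

omit [Finite F] in
include D in
theorem s_k1 : s * (c * k * c⁻¹) * s⁻¹ = (c * k * c⁻¹)⁻¹ := by
  have h1 : s * c = c * (c * s) := by rw [s_c D, ← mul_assoc, cc D]
  calc s * (c * k * c⁻¹) * s⁻¹ = (s * c) * k * (s * c)⁻¹ := by group
    _ = c * ((c * s) * k * (c * s)⁻¹) * c⁻¹ := by rw [h1]; group
    _ = _ := by rw [D.K1]; group

omit [Finite F] in
theorem tr_act {g y l : G} {x : F → G} {m : F} (h : ∀ a, (g⁻¹ * y * g) * x a * (g⁻¹ * y * g)⁻¹ = x (m * a)) (a : F) :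
    y * (g * x a * g⁻¹) * y⁻¹ = g * x (m * a) * g⁻¹ := by
  rw [← h a]; group

include D hA hx hk hx1 hκ0

omit hA hx hx1 hκ0 [Finite F] [Algebra (ZMod p) F] [Fact p.Prime] in
theorem k_01 (a : F) : k * XX s c x 0 1 a * k⁻¹ = XX s c x 0 1 (κ * a) := by
  show k * (1 * x a * 1⁻¹) * k⁻¹ = 1 * x (κ * a) * 1⁻¹
  rw [← hk]; group

omit hκ0 in
theorem k_12 (a : F) : k * XX s c x 1 2 a * k⁻¹ = XX s c x 1 2 (κ * a) :=
  tr_act (l := k) (g := c) (k2_x D hA hx hk hx1) a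

theorem k_02 (a : F) : k * XX s c x 0 2 a * k⁻¹ = XX s c x 0 2 (κ ^ 2 * a) := by
  refine tr_act (l := k) (g := c⁻¹ * s) (fun a => ?_) a
  have e : (c⁻¹ * s)⁻¹ * k * (c⁻¹ * s) = (c * k * c⁻¹)⁻¹ := by
    rw [← s_k1 D, sinv D]
    calc (c⁻¹ * s)⁻¹ * k * (c⁻¹ * s) = s⁻¹ * (c * k * c⁻¹) * s := by group
      _ = _ := by rw [sinv D]
  rw [e, inv_act (inv_ne_zero (pow_ne_zero 2 hκ0)) (k1_x D hκ0 hA hx hk hx1), inv_inv]

omit hκ0 in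
theorem k2_01 (a : F) : (c⁻¹ * k * c) * XX s c x 0 1 a * (c⁻¹ * k * c)⁻¹ = XX s c x 0 1 (κ * a) := by
  show (c⁻¹ * k * c) * (1 * x a * 1⁻¹) * (c⁻¹ * k * c)⁻¹ = 1 * x (κ * a) * 1⁻¹
  rw [← k2_x D hA hx hk hx1]; group

theorem k2_12 (a : F) : (c⁻¹ * k * c) * XX s c x 1 2 a * (c⁻¹ * k * c)⁻¹ = XX s c x 1 2 ((κ ^ 2)⁻¹ * a) := by
  refine tr_act (l := k) (g := c) (fun a => ?_) a
  have e : c⁻¹ * (c⁻¹ * k * c) * c = c * k * c⁻¹ := by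
    calc c⁻¹ * (c⁻¹ * k * c) * c = (c * c)⁻¹ * k * (c * c) := by group
      _ = _ := by rw [cc D]; group
  rw [e]
  exact k1_x D hκ0 hA hx hk hx1 a

theorem k2_02 (a : F) : (c⁻¹ * k * c) * XX s c x 0 2 a * (c⁻¹ * k * c)⁻¹ = XX s c x 0 2 (κ⁻¹ * a) := by
  refine tr_act (l := k) (g := c⁻¹ * s) (fun a => ?_) a
  have e : (c⁻¹ * s)⁻¹ * (c⁻¹ * k * c) * (c⁻¹ * s) = (c⁻¹ * k * c)⁻¹ := by
    rw [← s_k D, sinv D]
    calc (c⁻¹ * s)⁻¹ * (c⁻¹ * k * c) * (c⁻¹ * s) = s⁻¹ * k * s := by group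
      _ = _ := by rw [sinv D]
  rw [e]
  exact inv_act hκ0 (k2_x D hA hx hk hx1) a

end act

end Cfsg.Agent.H14.Ps
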