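import Mathlib
import Cfsg.Agent.H14_PsA

set_option autoImplicit false
set_option linter.all false

/-!
A presentation of `SL₃(q)` with four generators and fourteen relations: Steinberg relations.
-/

namespace Cfsg.Agent.H14.Ps

open Polynomial Cfsg.Agent.H14.Pr Cfsg.Agent.H14.Yk

section absl

variable {F : Type*} [Field F] {G : Type*} [Group G]

def P3 (X Y Z : F → G) (a b : F) : Prop := X a * Y b * (X a)⁻¹ * (Y b)⁻¹ = Z (a * b)

theorem xneg {x : F → G} (hx : ∀ s s', x s * x s' = x (s + s')) (s : F) : (x s)⁻¹ = x (-s) := by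
  rw [inv_eq_iff_mul_eq_one, hx, add_neg_cancel, x_zero hx]

theorem P3_conj {X Y Z : F → G} {g : G} {α β γ : F} (h1 : ∀ a, g * X a * g⁻¹ = X (α * a)) (h2 : ∀ a, g * Y a * g⁻¹ = Y (β * a))
    (h3 : ∀ a, g * Z a * g⁻¹ = Z (γ * a)) (hγ : γ = α * β) {a b : F} (h : P3 X Y Z a b) : P3 X Y Z (α * a) (β * b) := by
  unfold P3 at *
  have e : g * (X a * Y b * (X a)⁻¹ * (Y b)⁻¹) * g⁻¹ = (g * X a * g⁻¹) * (g * Y b * g⁻¹) * (g * X a * g⁻¹)⁻¹ * (g * Y b * g⁻¹)⁻¹ := by group
  rw [h, h3, h1, h2] at e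
  rw [← e]; congr 1; rw [hγ]; ring

variable {X Y Z : F → G} (hX : ∀ a b, X a * X b = X (a + b)) (hY : ∀ a b, Y a * Y b = Y (a + b)) (hZ : ∀ a b, Z a * Z b = Z (a + b))
include hX hY hZ

theorem P1_of {a b : F} (h : P3 X Y Z a b) (h' : P3 X Y Z (-a) b) : Commute (X a) (Z (a * b)) := by
  unfold P3 at *
  rw [xneg hX, xneg hY] at h h'
  rw [neg_neg] at h'
  have e1 : Y b * X a * Y (-b) = X a * Z (-(a * b)) := by
    rw [← neg_mul, ← h', ← xneg hX, ← xneg hY]; group
  have e2 : Y b * X a * Y (-b) = Z (-(a * b)) * X a := by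
    rw [← xneg hZ, ← h, ← xneg hX, ← xneg hY]; group
  have e3 : Commute (X a) (Z (-(a * b))) := e1.symm.trans e2
  rw [← xneg hZ] at e3
  simpa using e3.inv_right

theorem P2_of {a b : F} (h : P3 X Y Z a b) (h' : P3 X Y Z a (-b)) : Commute (Y b) (Z (a * b)) := by
  unfold P3 at *
  have e1 : X a * Y b * (X a)⁻¹ = Z (a * b) * Y b := by rw [← h]; group
  have e2 : X a * Y b * (X a)⁻¹ = Y b * Z (a * b) := by
    have : Z (a * b) = (X a * Y (-b) * (X a)⁻¹ * (Y (-b))⁻¹)⁻¹ := by rw [h', xneg hZ]; congr 1; ring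
    rw [this, ← xneg hY]; group
  exact e2.symm.trans e1

theorem absl {κ : F} (hκ0 : κ ≠ 0) (hκ : ∀ c : F, c ≠ 0 → ∃ n : ℕ, c = κ ^ n) {g h : G}
    (gX : ∀ a, g * X a * g⁻¹ = X (κ * a)) (gY : ∀ a, g * Y a * g⁻¹ = Y (κ * a)) (gZ : ∀ a, g * Z a * g⁻¹ = Z (κ ^ 2 * a))
    (kX : ∀ a, h * X a * h⁻¹ = X (κ * a)) (kY : ∀ a, h * Y a * h⁻¹ = Y ((κ ^ 2)⁻¹ * a)) (kZ : ∀ a, h * Z a * h⁻¹ = Z (κ⁻¹ * a))
    (p1 : P3 X Y Z 1 1) (pk : P3 X Y Z κ 1)
    (hs : ∀ A : AddSubgroup F, (∀ j : ℕ, κ ^ (3 * j) ∈ A) → (∀ j : ℕ, κ ^ (3 * j) * κ ∈ A) → A = ⊤)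
    (hs' : ∀ A : AddSubgroup F, (∀ j : ℕ, κ⁻¹ ^ (3 * j) ∈ A) → (∀ j : ℕ, κ⁻¹ ^ (3 * j) * κ⁻¹ ∈ A) → A = ⊤) :
    (∀ a b, P3 X Y Z a b) ∧ (∀ a c, Commute (X a) (Z c)) ∧ (∀ b c, Commute (Y b) (Z c)) := by
  have q1 : ∀ {a b}, P3 X Y Z a b → P3 X Y Z (κ * a) (κ * b) := fun hp => P3_conj gX gY gZ (pow_two κ) hp
  have q2 : ∀ {a b}, P3 X Y Z a b → P3 X Y Z (κ ^ 3 * a) b := by
    intro a b hp
    have h1 := q1 (q1 (P3_conj kX kY kZ (by field_simp) hp))
    have e1 : κ * (κ * (κ * a)) = κ ^ 3 * a := by ring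
    have e2 : κ * (κ * ((κ ^ 2)⁻¹ * b)) = b := by field_simp
    rwa [e1, e2] at h1
  let R : F → Prop := fun r => ∀ b, b ≠ 0 → P3 X Y Z (r * b) b
  have q1n : ∀ (n : ℕ) {a b}, P3 X Y Z a b → P3 X Y Z (κ ^ n * a) (κ ^ n * b) := by
    intro n
    induction n with
    | zero => intro a b hp; simpa using hp
    | succ n ih =>
      intro a b hp
      have := q1 (ih hp)
      rw [← mul_assoc, ← mul_assoc, ← pow_succ'] at this
      exact this
  have q2n : ∀ (n : ℕ) {a b}, P3 X Y Z a b → P3 X Y Z (κ ^ (3 * n) * a) b := by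
    intro n
    induction n with
    | zero => intro a b hp; simpa using hp
    | succ n ih =>
      intro a b hp
      have := q2 (ih hp)
      rw [← mul_assoc, ← pow_add] at this
      rwa [mul_add, mul_one, add_comm]
  have R1' : ∀ n : ℕ, R (κ ^ (3 * n)) := by
    intro n b hb
    obtain ⟨m, rfl⟩ := hκ b hb
    have := q2n n (q1n m p1)
    rwa [mul_one] at this
  have R2' : ∀ n : ℕ, R (κ ^ (3 * n) * κ) := by
    intro n b hb
    obtain ⟨m, rfl⟩ := hκ b hb
    have := q2n n (q1n m pk)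
    rwa [mul_one, mul_comm (κ ^ m), ← mul_assoc] at this
  obtain ⟨m0, hm0⟩ := hκ (-1) (by simp)
  have Rneg : ∀ {r}, R r → R (-r) := by
    intro r hr b hb
    have := q2n m0 (hr b hb)
    have e : κ ^ (3 * m0) = -1 := by rw [mul_comm, pow_mul, ← hm0]; norm_num
    rw [e] at this
    have e2 : -1 * (r * b) = -r * b := by ring
    rwa [e2] at this
  have X0 : X 0 = 1 := x_zero hX
  have Y0 : Y 0 = 1 := x_zero hY
  have Z0 : Z 0 = 1 := x_zero hZ
  have P1a : ∀ {r}, R r → ∀ b, b ≠ 0 → Commute (X (r * b)) (Z (r * b * b)) := by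
    intro r hr b hb
    refine P1_of hX hY hZ (hr b hb) ?_
    have := Rneg hr b hb
    rwa [neg_mul] at this
  have P2a : ∀ {r}, R r → ∀ b, b ≠ 0 → Commute (Y b) (Z (r * b * b)) := by
    intro r hr b hb
    refine P2_of hX hY hZ (hr b hb) ?_
    have := Rneg hr (-b) (neg_ne_zero.2 hb)
    rwa [neg_mul_neg] at this
  have Zinv : ∀ c, (Z c)⁻¹ = Z (-c) := xneg hZ
  have P1b : ∀ a c, Commute (X a) (Z c) := by
    intro a c
    by_cases ha : a = 0
    · rw [ha, X0]; exact Commute.one_left _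
    let A : AddSubgroup F :=
      { carrier := {z | Commute (X a) (Z (a * a * z))}
        add_mem' := fun {z w} hz hw => by
          show Commute (X a) (Z (a * a * (z + w)))
          rw [mul_add, ← hZ]; exact Commute.mul_right hz hw
        zero_mem' := by
          show Commute (X a) (Z (a * a * 0))
          rw [mul_zero, Z0]; exact Commute.one_right _
        neg_mem' := fun {z} hz => by
          show Commute (X a) (Z (a * a * -z))
          rw [mul_neg, ← Zinv]; exact Commute.inv_right hz }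
    have key : ∀ r, r ≠ 0 → R r → r⁻¹ ∈ A := by
      intro r hr0 hr
      have := P1a hr (a * r⁻¹) (mul_ne_zero ha (inv_ne_zero hr0))
      have e1 : r * (a * r⁻¹) = a := by field_simp
      rw [e1] at this
      show Commute (X a) (Z (a * a * r⁻¹))
      rwa [mul_assoc]
    have hAt : A = ⊤ := by
      apply hs'
      · intro j
        rw [inv_pow]
        exact key _ (pow_ne_zero _ hκ0) (R1' j)
      · intro j
        rw [inv_pow, ← mul_inv]
        exact key _ (mul_ne_zero (pow_ne_zero _ hκ0) hκ0) (R2' j)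
    have : (a * a)⁻¹ * c ∈ A := by rw [hAt]; trivial
    have h2 : Commute (X a) (Z (a * a * ((a * a)⁻¹ * c))) := this
    rwa [mul_inv_cancel_left₀ (mul_ne_zero ha ha)] at h2
  have P2b : ∀ b c, Commute (Y b) (Z c) := by
    intro b c
    by_cases hb : b = 0
    · rw [hb, Y0]; exact Commute.one_left _
    let A : AddSubgroup F :=
      { carrier := {z | Commute (Y b) (Z (z * b * b))}
        add_mem' := fun {z w} hz hw => by
          show Commute (Y b) (Z ((z + w) * b * b))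
          rw [add_mul, add_mul, ← hZ]; exact Commute.mul_right hz hw
        zero_mem' := by
          show Commute (Y b) (Z (0 * b * b))
          rw [zero_mul, zero_mul, Z0]; exact Commute.one_right _
        neg_mem' := fun {z} hz => by
          show Commute (Y b) (Z (-z * b * b))
          rw [neg_mul, neg_mul, ← Zinv]; exact Commute.inv_right hz }
    have hAt : A = ⊤ := hs A (fun j => P2a (R1' j) b hb) (fun j => P2a (R2' j) b hb)
    have : c * b⁻¹ * b⁻¹ ∈ A := by rw [hAt]; trivial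
    have h2 : Commute (Y b) (Z (c * b⁻¹ * b⁻¹ * b * b)) := this
    have e : c * b⁻¹ * b⁻¹ * b * b = c := by field_simp
    rwa [e] at h2
  refine ⟨?_, P1b, P2b⟩
  intro a b
  by_cases hb : b = 0
  · unfold P3
    rw [hb, mul_zero, Y0, Z0]; group
  let A : AddSubgroup F :=
    { carrier := {z | P3 X Y Z (z * b) b}
      add_mem' := fun {z w} hz hw => by
        show P3 X Y Z ((z + w) * b) b
        change P3 X Y Z (z * b) b at hz
        change P3 X Y Z (w * b) b at hw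
        unfold P3 at *
        rw [add_mul, add_mul, ← hX, ← hZ]
        calc X (z * b) * X (w * b) * Y b * (X (z * b) * X (w * b))⁻¹ * (Y b)⁻¹
            = X (z * b) * (X (w * b) * Y b * (X (w * b))⁻¹ * (Y b)⁻¹) * (X (z * b))⁻¹ * (X (z * b) * Y b * (X (z * b))⁻¹ * (Y b)⁻¹) := by group
          _ = Z (z * b * b) * Z (w * b * b) := by
            rw [hz, hw, (P1b _ _).eq, hZ, mul_inv_cancel_right, hZ, add_comm]
      zero_mem' := by
        show P3 X Y Z (0 * b) b
        unfold P3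
        rw [zero_mul, zero_mul, X0, Z0]; group
      neg_mem' := fun {z} hz => by
        show P3 X Y Z (-z * b) b
        change P3 X Y Z (z * b) b at hz
        unfold P3 at *
        rw [neg_mul, neg_mul, ← xneg hX, ← Zinv, ← hz]
        have c1 : Commute (X (z * b)) (X (z * b) * Y b * (X (z * b))⁻¹ * (Y b)⁻¹)⁻¹ := by rw [hz]; exact (P1b _ _).inv_right
        calc (X (z * b))⁻¹ * Y b * (X (z * b))⁻¹⁻¹ * (Y b)⁻¹
            = (X (z * b))⁻¹ * ((X (z * b) * Y b * (X (z * b))⁻¹ * (Y b)⁻¹)⁻¹ * X (z * b)) := by group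
          _ = _ := by rw [← c1.eq]; group }
  have hAt : A = ⊤ := hs A (fun j => R1' j b hb) (fun j => R2' j b hb)
  have : a * b⁻¹ ∈ A := by rw [hAt]; trivial
  have h2 : P3 X Y Z (a * b⁻¹ * b) b := this
  rwa [inv_mul_cancel_right₀ hb] at h2

end absl

end Cfsg.Agent.H14.Ps
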