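import Mathlib
import Cfsg.Agent.H14_PsB
import Cfsg.Agent.H14_PmD

set_option autoImplicit false
set_option linter.all false

/-!
A presentation of `SL₃(q)` with four generators and fourteen relations: the homomorphism.
-/

namespace Cfsg.Agent.H14.Ps

open Polynomial Cfsg.Agent.H14.Pr Cfsg.Agent.H14.Yk Cfsg.Agent.H14.Pm Matrix

theorem triples {Q : Fin 3 → Fin 3 → Fin 3 → Prop} (h : Q 0 1 2)
    (hc : ∀ i j k, i ≠ j → j ≠ k → i ≠ k → Q i j k → Q (i + 1) (j + 1) (k + 1))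
    (hs : ∀ i j k, i ≠ j → j ≠ k → i ≠ k → Q i j k → Q (Equiv.swap 0 1 i) (Equiv.swap 0 1 j) (Equiv.swap 0 1 k)) :
    ∀ i j k, i ≠ j → j ≠ k → i ≠ k → Q i j k := by
  have h1 : Q 1 2 0 := hc 0 1 2 (by decide) (by decide) (by decide) h
  have h2 : Q 2 0 1 := hc 1 2 0 (by decide) (by decide) (by decide) h1
  have h3 : Q 1 0 2 := hs 0 1 2 (by decide) (by decide) (by decide) h
  have h4 : Q 2 1 0 := hc 1 0 2 (by decide) (by decide) (by decide) h3
  have h5 : Q 0 2 1 := hc 2 1 0 (by decide) (by decide) (by decide) h4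
  intro i j k hij hjk hik
  fin_cases i <;> fin_cases j <;> fin_cases k <;>
    first | exact absurd rfl hij | exact absurd rfl hjk | exact absurd rfl hik | assumption

section St

variable {F : Type*} [Field F] [Finite F] {G : Type*} [Group G] {m0 : ℕ} {u s c k : G} (D : Dat m0 u s c k)
  {p : ℕ} [Fact p.Prime] [Algebra (ZMod p) F] {κ : F} (hκ0 : κ ≠ 0) (hκ : ∀ c : F, c ≠ 0 → ∃ n : ℕ, c = κ ^ n)
  (hA : Algebra.adjoin (ZMod p) {κ} = ⊤)
  {x : F → G} (hx : ∀ a b, x a * x b = x (a + b)) (hk : ∀ a, k * x a * k⁻¹ = x (κ * a)) (hx1 : x 1 = u)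
  (hs : ∀ A : AddSubgroup F, (∀ j : ℕ, κ ^ (3 * j) ∈ A) → (∀ j : ℕ, κ ^ (3 * j) * κ ∈ A) → A = ⊤)
  (hs' : ∀ A : AddSubgroup F, (∀ j : ℕ, κ⁻¹ ^ (3 * j) ∈ A) → (∀ j : ℕ, κ⁻¹ ^ (3 * j) * κ⁻¹ ∈ A) → A = ⊤)
include D hκ0 hκ hA hx hk hx1 hs hs'

theorem St_of : St (XX s c x) := by
  have hadd : ∀ i j : Fin 3, ∀ a b : F, XX s c x i j a * XX s c x i j b = XX s c x i j (a + b) := by
    intro i j a b
    unfold XX
    rw [← hx]; group
  have base := absl (X := XX s c x 0 1) (Y := XX s c x 1 2) (Z := XX s c x 0 2) (hadd 0 1) (hadd 1 2) (hadd 0 2) hκ0 hκ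
    (g := k) (h := c⁻¹ * k * c) (k_01 D hk) (k_12 D hA hx hk hx1) (k_02 D hκ0 hA hx hk hx1)
    (k2_01 D hA hx hk hx1) (k2_12 D hκ0 hA hx hk hx1) (k2_02 D hκ0 hA hx hk hx1)
    (by
      unfold P3
      have := D.P1
      rw [mul_one]
      show (1 * x 1 * 1⁻¹) * (c * x 1 * c⁻¹) * (1 * x 1 * 1⁻¹)⁻¹ * (c * x 1 * c⁻¹)⁻¹ = (c⁻¹ * s) * x 1 * (c⁻¹ * s)⁻¹
      rw [hx1, ← this]; group)
    (by
      unfold P3
      have := D.Pk
      have e : k * u * k⁻¹ = x κ := by rw [← hx1, hk, mul_one]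
      rw [e] at this
      rw [mul_one]
      show (1 * x κ * 1⁻¹) * (c * x 1 * c⁻¹) * (1 * x κ * 1⁻¹)⁻¹ * (c * x 1 * c⁻¹)⁻¹ = (c⁻¹ * s) * x κ * (c⁻¹ * s)⁻¹
      rw [hx1, ← this]; group)
    hs hs'
  obtain ⟨b1, b2, b3⟩ := base
  have ne1 : ∀ i j : Fin 3, i ≠ j → i + 1 ≠ j + 1 := by decide
  have row : ∀ i j l : Fin 3, i ≠ j → j ≠ l → i ≠ l → ∀ a b, Commute (XX s c x i j a) (XX s c x i l b) := by
    apply triples
    · exact b2
    · intro i j l hij hjl hil h a b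
      rw [← c_XX D x hij, ← c_XX D x hil]
      exact comm_conj.2 (h a b)
    · intro i j l hij hjl hil h a b
      rw [← s_XX D x hij, ← s_XX D x hil]
      exact comm_conj.2 (h a b)
  have col : ∀ i j l : Fin 3, i ≠ j → j ≠ l → i ≠ l → ∀ a b, Commute (XX s c x j l a) (XX s c x i l b) := by
    apply triples
    · exact b3
    · intro i j l hij hjl hil h a b
      rw [← c_XX D x hjl, ← c_XX D x hil]
      exact comm_conj.2 (h a b)
    · intro i j l hij hjl hil h a b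
      rw [← s_XX D x hjl, ← s_XX D x hil]
      exact comm_conj.2 (h a b)
  have cm : ∀ i j l : Fin 3, i ≠ j → j ≠ l → i ≠ l → ∀ a b, XX s c x i j a * XX s c x j l b * (XX s c x i j a)⁻¹ * (XX s c x j l b)⁻¹ = XX s c x i l (a * b) := by
    have cj4 : ∀ g a b : G, (g * a * g⁻¹) * (g * b * g⁻¹) * (g * a * g⁻¹)⁻¹ * (g * b * g⁻¹)⁻¹ = g * (a * b * a⁻¹ * b⁻¹) * g⁻¹ := by
      intro g a b; group
    apply triples
    · exact b1
    · intro i j l hij hjl hil h a b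
      rw [← c_XX D x hij, ← c_XX D x hil, ← c_XX D x hjl, cj4, h]
    · intro i j l hij hjl hil h a b
      rw [← s_XX D x hij, ← s_XX D x hil, ← s_XX D x hjl, cj4, h]
  refine ⟨fun i j a b _ => hadd i j a b, ?_, fun i j l a b hij hjl hil => cm i j l hij hjl hil a b⟩
  intro i j k' l a b hij hkl hjk hil
  by_cases hik : i = k'
  · subst hik
    by_cases hjl : j = l
    · subst hjl
      rw [hadd, hadd, add_comm]
    · exact (row i j l hij hjl hil a b).eq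
  · have hjl : j = l := by
      have : ∀ i j k l : Fin 3, i ≠ j → k ≠ l → j ≠ k → i ≠ l → i ≠ k → j = l := by decide
      exact this i j k' l hij hkl hjk hil hik
    subst hjl
    exact (col k' i j (Ne.symm hik) hij hkl a b).eq

end St

section mats

variable {F : Type*} [Field F]

def sM : Matrix.SpecialLinearGroup (Fin 3) F := ⟨!![0, -1, 0; -1, 0, 0; 0, 0, -1], by simp [Matrix.det_fin_three]⟩
def cM : Matrix.SpecialLinearGroup (Fin 3) F := ⟨!![0, 0, 1; 1, 0, 0; 0, 1, 0], by simp [Matrix.det_fin_three]⟩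

theorem dprod {κ : F} (hκ0 : κ ≠ 0) (n : ℕ) : ∏ i, (![κ ^ n, 1, (κ ^ n)⁻¹] : Fin 3 → F) i = 1 := by
  simp [Fin.prod_univ_three, hκ0]

def kM {κ : F} (hκ0 : κ ≠ 0) : Matrix.SpecialLinearGroup (Fin 3) F := dg ![κ ^ 1, 1, (κ ^ 1)⁻¹] (dprod hκ0 1)

theorem kM_pow {κ : F} (hκ0 : κ ≠ 0) (n : ℕ) : (kM hκ0) ^ n = dg ![κ ^ n, 1, (κ ^ n)⁻¹] (dprod hκ0 n) := by
  induction n with
  | zero =>
    rw [pow_zero]
    apply Subtype.ext
    show (1 : Matrix (Fin 3) (Fin 3) F) = Matrix.diagonal ![κ ^ 0, 1, (κ ^ 0)⁻¹]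
    ext i j
    fin_cases i <;> fin_cases j <;> simp [Matrix.diagonal, Matrix.one_apply]
  | succ n ih =>
    rw [pow_succ, ih]
    unfold kM
    apply Subtype.ext
    show Matrix.diagonal _ * Matrix.diagonal _ = Matrix.diagonal _
    rw [Matrix.diagonal_mul_diagonal]
    congr 1
    ext i
    fin_cases i <;> simp [pow_succ, mul_comm]

theorem sM2 : (sM : Matrix.SpecialLinearGroup (Fin 3) F) * sM = 1 := by
  apply Subtype.ext
  show !![0, -1, 0; -1, 0, 0; 0, 0, -1] * !![0, -1, 0; -1, 0, 0; 0, 0, -1] = (1 : Matrix (Fin 3) (Fin 3) F)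
  ext i j
  fin_cases i <;> fin_cases j <;> simp [Matrix.mul_apply, Fin.sum_univ_three]

theorem sMc : (sM : Matrix.SpecialLinearGroup (Fin 3) F) * cM = cM * cM * sM := by
  apply Subtype.ext
  show !![0, -1, 0; -1, 0, 0; 0, 0, -1] * !![0, 0, 1; 1, 0, 0; 0, 1, 0] =
    (!![0, 0, 1; 1, 0, 0; 0, 1, 0] * !![0, 0, 1; 1, 0, 0; 0, 1, 0] * !![0, -1, 0; -1, 0, 0; 0, 0, -1] : Matrix (Fin 3) (Fin 3) F)
  ext i j
  fin_cases i <;> fin_cases j <;> simp [Matrix.mul_apply, Fin.sum_univ_three]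

theorem cM_tr (i j : Fin 3) (h : i ≠ j) (a : F) : cM * tr i j a = tr (i + 1) (j + 1) a * cM := by
  have h' : i + 1 ≠ j + 1 := by revert i j; decide
  apply Subtype.ext
  show cM.1 * (tr i j a).1 = (tr (i + 1) (j + 1) a).1 * cM.1
  rw [tr_coe h, tr_coe h']
  unfold cM
  ext r t
  fin_cases i <;> fin_cases j <;> first | exact absurd rfl h | skip
  all_goals fin_cases r <;> fin_cases t <;>
    simp [Matrix.mul_apply, Fin.sum_univ_three, Matrix.transvection, Matrix.single, Matrix.one_apply]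

theorem sM_tr (i j : Fin 3) (h : i ≠ j) (a : F) : sM * tr i j a = tr (Equiv.swap 0 1 i) (Equiv.swap 0 1 j) a * sM := by
  have h' : Equiv.swap 0 1 i ≠ Equiv.swap 0 1 j := by simpa using h
  apply Subtype.ext
  show sM.1 * (tr i j a).1 = (tr (Equiv.swap 0 1 i) (Equiv.swap 0 1 j) a).1 * sM.1
  rw [tr_coe h, tr_coe h']
  unfold sM
  have e0 : Equiv.swap (0 : Fin 3) 1 0 = 1 := by decide
  have e1 : Equiv.swap (0 : Fin 3) 1 1 = 0 := by decide
  have e2 : Equiv.swap (0 : Fin 3) 1 2 = 2 := by decide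
  ext r t
  fin_cases i <;> fin_cases j <;> first | exact absurd rfl h | skip
  all_goals fin_cases r <;> fin_cases t <;>
    simp [Matrix.mul_apply, Fin.sum_univ_three, Matrix.transvection, Matrix.single, Matrix.one_apply, e0, e1, e2]

end mats

end Cfsg.Agent.H14.Ps
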