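import Mathlib
import Cfsg.Agent.H14_PsC

set_option autoImplicit false
set_option linter.all false

/-!
A presentation of `SL₃(q)` with four generators and fourteen relations: the relations hold in `SL₃`.
-/

namespace Cfsg.Agent.H14.Ps

open Polynomial Cfsg.Agent.H14.Pr Cfsg.Agent.H14.Yk Cfsg.Agent.H14.Pm Matrix

section mats

variable {F : Type*} [Field F] {κ : F} (hκ0 : κ ≠ 0)

theorem cM_conj (i j : Fin 3) (h : i ≠ j) (a : F) : cM * tr i j a * cM⁻¹ = tr (i + 1) (j + 1) a := by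
  rw [cM_tr i j h]; group

theorem sM_conj (i j : Fin 3) (h : i ≠ j) (a : F) : sM * tr i j a * sM⁻¹ = tr (Equiv.swap 0 1 i) (Equiv.swap 0 1 j) a := by
  rw [sM_tr i j h]; group

theorem sMinv : (sM : Matrix.SpecialLinearGroup (Fin 3) F)⁻¹ = sM := inv_eq_of_mul_eq_one_right sM2

theorem s01 (a : F) : sM * tr 0 1 a * sM⁻¹ = tr 1 0 a := sM_conj 0 1 (by decide) a

theorem c01 (a : F) : cM * tr 0 1 a * cM⁻¹ = tr 1 2 a := cM_conj 0 1 (by decide) a

theorem ci01 (a : F) : cM⁻¹ * tr 0 1 a * cM = tr 2 0 a := by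
  have : cM * tr 2 0 a * cM⁻¹ = tr 0 1 a := cM_conj 2 0 (by decide) a
  rw [← this]; group

theorem cs01 (a : F) : (cM⁻¹ * sM) * tr 0 1 a * (cM⁻¹ * sM)⁻¹ = tr 0 2 a := by
  have h1 : cM * tr 0 2 a * cM⁻¹ = tr 1 0 a := cM_conj 0 2 (by decide) a
  calc (cM⁻¹ * sM) * tr 0 1 a * (cM⁻¹ * sM)⁻¹ = cM⁻¹ * (sM * tr 0 1 a * sM⁻¹) * cM := by group
    _ = _ := by rw [s01, ← h1]; group

theorem k01 (a : F) : kM hκ0 * tr 0 1 a * (kM hκ0)⁻¹ = tr 0 1 (κ * a) := by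
  unfold kM
  rw [dg_conj _ _ (by decide)]
  congr 1
  simp

theorem ki01 (a : F) : (kM hκ0)⁻¹ * tr 0 1 a * kM hκ0 = tr 0 1 (κ⁻¹ * a) := by
  have := k01 hκ0 (κ⁻¹ * a)
  rw [mul_inv_cancel_left₀ hκ0] at this
  rw [← this]; group

include hκ0 in
theorem dp1 : ∏ i, (![κ⁻¹, κ, 1] : Fin 3 → F) i = 1 := by simp [Fin.prod_univ_three, hκ0]
include hκ0 in
theorem dp2 : ∏ i, (![1, κ⁻¹, κ] : Fin 3 → F) i = 1 := by simp [Fin.prod_univ_three, hκ0]

theorem ckc : cM * kM hκ0 * cM⁻¹ = dg ![κ⁻¹, κ, 1] (dp1 hκ0) := by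
  rw [mul_inv_eq_iff_eq_mul]
  apply Subtype.ext
  show !![0, 0, 1; 1, 0, 0; 0, 1, 0] * Matrix.diagonal ![κ ^ 1, 1, (κ ^ 1)⁻¹] = Matrix.diagonal ![κ⁻¹, κ, 1] * !![0, 0, 1; 1, 0, 0; 0, 1, 0]
  ext i j
  fin_cases i <;> fin_cases j <;> simp [Matrix.mul_apply, Fin.sum_univ_three, Matrix.diagonal]

theorem cikc : cM⁻¹ * kM hκ0 * cM = dg ![1, κ⁻¹, κ] (dp2 hκ0) := by
  rw [mul_assoc, inv_mul_eq_iff_eq_mul]
  apply Subtype.ext
  show Matrix.diagonal ![κ ^ 1, 1, (κ ^ 1)⁻¹] * !![0, 0, 1; 1, 0, 0; 0, 1, 0] = !![0, 0, 1; 1, 0, 0; 0, 1, 0] * Matrix.diagonal ![1, κ⁻¹, κ]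
  ext i j
  fin_cases i <;> fin_cases j <;> simp [Matrix.mul_apply, Fin.sum_univ_three, Matrix.diagonal]

theorem dat {m0 : ℕ} (hm0 : κ ^ m0 = -1) : Dat (G := Matrix.SpecialLinearGroup (Fin 3) F) m0 (tr 0 1 1) sM cM (kM hκ0) where
  s2 := sM2
  sc := by rw [sMc, pow_two]; group
  K1 := by
    rw [mul_inv_eq_iff_eq_mul, eq_inv_mul_iff_mul_eq]
    apply Subtype.ext
    show Matrix.diagonal ![κ ^ 1, 1, (κ ^ 1)⁻¹] * ((!![0, 0, 1; 1, 0, 0; 0, 1, 0] * !![0, -1, 0; -1, 0, 0; 0, 0, -1]) * Matrix.diagonal ![κ ^ 1, 1, (κ ^ 1)⁻¹]) =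
      !![0, 0, 1; 1, 0, 0; 0, 1, 0] * !![0, -1, 0; -1, 0, 0; 0, 0, -1]
    have e : Matrix.diagonal ![κ ^ 1, 1, (κ ^ 1)⁻¹] = !![κ, 0, 0; 0, 1, 0; 0, 0, κ⁻¹] := by
      ext i j
      fin_cases i <;> fin_cases j <;> simp [Matrix.diagonal]
    rw [e]
    ext i j
    fin_cases i <;> fin_cases j <;> simp [Matrix.mul_apply, Fin.sum_univ_three, hκ0]
  Kc := by
    rw [ckc]
    apply Subtype.ext
    show Matrix.diagonal _ * Matrix.diagonal _ = Matrix.diagonal _ * Matrix.diagonal _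
    rw [Matrix.diagonal_mul_diagonal, Matrix.diagonal_mul_diagonal]
    congr 1; ext i; exact mul_comm _ _
  K2 := by
    rw [ckc, cikc]
    apply Subtype.ext
    show Matrix.diagonal _ * Matrix.diagonal _ * Matrix.diagonal _ = 1
    rw [Matrix.diagonal_mul_diagonal, Matrix.diagonal_mul_diagonal, ← Matrix.diagonal_one]
    congr 1; ext i
    fin_cases i <;> simp [hκ0]
  N2 := by
    rw [cikc, k01, dg_conj _ _ (by decide)]
    congr 1
    simp
  P1 := by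
    rw [c01, cs01]
    have := (St_tr (K := F) 3).cm 0 1 2 1 1 (by decide) (by decide) (by decide)
    rw [mul_one] at this
    exact this
  Pk := by
    rw [c01, k01, cs01]
    have := (St_tr (K := F) 3).cm 0 1 2 (κ * 1) 1 (by decide) (by decide) (by decide)
    rw [mul_one, mul_one] at this
    rw [mul_one]
    exact this
  S := by
    rw [s01, (St_tr (K := F) 3).xi (by decide), kM_pow]
    apply Subtype.ext
    show (sM : Matrix.SpecialLinearGroup (Fin 3) F).1 = Matrix.diagonal _ * ((tr 0 1 1 : Matrix.SpecialLinearGroup (Fin 3) F).1 * (tr 1 0 (-1) : Matrix.SpecialLinearGroup (Fin 3) F).1 * (tr 0 1 1 : Matrix.SpecialLinearGroup (Fin 3) F).1)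
    rw [tr_coe (by decide), tr_coe (by decide), hm0]
    unfold sM
    ext i j
    fin_cases i <;> fin_cases j <;> simp [Matrix.mul_apply, Fin.sum_univ_three, Matrix.diagonal, Matrix.transvection, Matrix.single, Matrix.one_apply]
  H := by
    rw [k01, cs01, cs01, ki01, ci01, ci01, (St_tr (K := F) 3).xi (by decide), (St_tr (K := F) 3).xi (by decide), mul_one, mul_one]
    rw [eq_mul_inv_iff_mul_eq]
    apply Subtype.ext
    show Matrix.diagonal ![κ ^ 1, 1, (κ ^ 1)⁻¹] * ((tr 0 2 1 : Matrix.SpecialLinearGroup (Fin 3) F).1 * (tr 2 0 (-1) : Matrix.SpecialLinearGroup (Fin 3) F).1 * (tr 0 2 1 : Matrix.SpecialLinearGroup (Fin 3) F).1) =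
      (tr 0 2 κ : Matrix.SpecialLinearGroup (Fin 3) F).1 * (tr 2 0 (-κ⁻¹) : Matrix.SpecialLinearGroup (Fin 3) F).1 * (tr 0 2 κ : Matrix.SpecialLinearGroup (Fin 3) F).1
    rw [tr_coe (by decide), tr_coe (by decide), tr_coe (by decide), tr_coe (by decide)]
    ext i j
    fin_cases i <;> fin_cases j <;> simp [Matrix.mul_apply, Fin.sum_univ_three, Matrix.diagonal, Matrix.transvection, Matrix.single, Matrix.one_apply, hκ0]

end mats

section hom

variable {F : Type*} [Field F] [Finite F] {G : Type*} [Group G] {m0 : ℕ} {u s c k : G} (D : Dat m0 u s c k)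
  {p : ℕ} [Fact p.Prime] [Algebra (ZMod p) F] {κ : F} (hκ0 : κ ≠ 0) (hκ : ∀ c : F, c ≠ 0 → ∃ n : ℕ, c = κ ^ n)
  (hA : Algebra.adjoin (ZMod p) {κ} = ⊤) (hm0 : κ ^ m0 = -1)
  {x : F → G} (hx : ∀ a b, x a * x b = x (a + b)) (hk : ∀ a, k * x a * k⁻¹ = x (κ * a)) (hx1 : x 1 = u)
  (hs : ∀ A : AddSubgroup F, (∀ j : ℕ, κ ^ (3 * j) ∈ A) → (∀ j : ℕ, κ ^ (3 * j) * κ ∈ A) → A = ⊤)
  (hs' : ∀ A : AddSubgroup F, (∀ j : ℕ, κ⁻¹ ^ (3 * j) ∈ A) → (∀ j : ℕ, κ⁻¹ ^ (3 * j) * κ⁻¹ ∈ A) → A = ⊤)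
include D hκ0 hκ hA hx hk hx1 hs hs' hm0

theorem exists_phi : ∃ φ : Matrix.SpecialLinearGroup (Fin 3) F →* G, φ (tr 0 1 1) = u ∧ φ sM = s ∧ φ cM = c ∧ φ (kM hκ0) = k := by
  have S := St_of D hκ0 hκ hA hx hk hx1 hs hs'
  obtain ⟨φ, hφ⟩ := S.exists_hom le_rfl
  have D' := dat hκ0 hm0
  have xi : ∀ a, (x a)⁻¹ = x (-a) := xneg hx
  have ek : k * u * k⁻¹ = x κ := by rw [← hx1, hk, mul_one]
  have eki : k⁻¹ * u * k = x κ⁻¹ := by
    have := hk κ⁻¹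
    rw [mul_inv_cancel₀ hκ0, hx1] at this
    rw [← this]; group
  have X02 : ∀ a, φ (tr 0 2 a) = (c⁻¹ * s) * x a * (c⁻¹ * s)⁻¹ := fun a => hφ 0 2 (by decide) a
  have X20 : ∀ a, φ (tr 2 0 a) = c⁻¹ * x a * c := fun a => by
    rw [hφ 2 0 (by decide) a]
    show c⁻¹ * x a * c⁻¹⁻¹ = _
    rw [inv_inv]
  have X01 : ∀ a, φ (tr 0 1 a) = x a := fun a => by
    rw [hφ 0 1 (by decide) a]
    show 1 * x a * 1⁻¹ = _
    group
  have X10 : ∀ a, φ (tr 1 0 a) = s * x a * s⁻¹ := fun a => hφ 1 0 (by decide) a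
  have hkM : φ (kM hκ0) = k := by
    have h1 := D'.H
    rw [k01, cs01, cs01, ki01, ci01, ci01, mul_one, mul_one] at h1
    have h2 := congrArg φ h1
    rw [map_mul, map_inv, map_mul, map_mul, map_mul, map_mul, map_inv, map_inv, X02, X20, X02, X20] at h2
    rw [h2, hx1]
    have h3 := D.H
    rw [ek, eki] at h3
    exact h3.symm
  have hsM : φ sM = s := by
    have h1 := D'.S
    rw [s01] at h1
    have h2 := congrArg φ h1
    rw [map_mul, map_pow, map_mul, map_mul, map_inv, X01, X10, hkM, hx1] at h2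
    rw [h2]
    exact D.S.symm
  have hc : ∀ g : Matrix.SpecialLinearGroup (Fin 3) F, φ (cM * g * cM⁻¹) = c * φ g * c⁻¹ := by
    let f1 : Matrix.SpecialLinearGroup (Fin 3) F →* G := φ.comp (MulAut.conj cM).toMonoidHom
    let f2 : Matrix.SpecialLinearGroup (Fin 3) F →* G := (MulAut.conj c).toMonoidHom.comp φ
    have h1 : f1 = f2 := by
      apply MonoidHom.eq_of_eqOn_top
      rw [← gen_tr 3 (by norm_num)]
      refine MonoidHom.eqOn_closure ?_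
      rintro _ ⟨i, j, t, hij, rfl⟩
      show φ (cM * tr i j t * cM⁻¹) = c * φ (tr i j t) * c⁻¹
      have hij' : i + 1 ≠ j + 1 := by revert i j; decide
      rw [cM_conj i j hij, hφ _ _ hij', hφ _ _ hij, c_XX D x hij]
    intro g
    exact DFunLike.congr_fun h1 g
  refine ⟨φ, ?_, hsM, ?_, hkM⟩
  · rw [X01, hx1]
  · have e : ∀ {H : Type _} [Group H] {u s c k : H}, Dat m0 u s c k → s * (c * s * c⁻¹) = c := by
      intro H _ u s c k D
      calc s * (c * s * c⁻¹) = (s * c) * s * c⁻¹ := by group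
        _ = c⁻¹ * (s * s) * c⁻¹ := by rw [s_c D]; group
        _ = (c * c)⁻¹ := by rw [D.s2]; group
        _ = c := by rw [cc D, inv_inv]
    have e1 := e D'
    have e2 : φ cM = φ sM * (c * φ sM * c⁻¹) := by
      nth_rewrite 1 [← e1]
      rw [map_mul, hc]
    rw [e2, hsM]
    calc s * (c * s * c⁻¹) = (s * c) * s * c⁻¹ := by group
        _ = c⁻¹ * (s * s) * c⁻¹ := by rw [s_c D]; group
        _ = (c * c)⁻¹ := by rw [D.s2]; group
        _ = c := by rw [cc D, inv_inv]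

end hom

end Cfsg.Agent.H14.Ps
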