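import Mathlib
import Cfsg.Agent.H14_PrG
import Cfsg.Agent.H14_PsD

set_option autoImplicit false
set_option linter.all false

/-!
A presentation of `SL₃(q)` with four generators and fourteen relations: conclusion.
-/

namespace Cfsg.Agent.H14.Ps

open Polynomial Cfsg.Agent.H14.Pr Cfsg.Agent.H14.Yk Cfsg.Agent.H14.Pm Matrix

section fld

variable {F : Type*} [Field F] [Finite F] {p : ℕ} [Fact p.Prime] [Algebra (ZMod p) F]

theorem adj3 {κ : Fˣ} (hκ : ∀ x, x ∈ Subgroup.zpowers κ) :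
    Algebra.adjoin (ZMod p) {(κ : F) ^ 3} = ⊤ ∨ Nat.card F = 4 := by
  by_contra hcon
  push Not at hcon
  obtain ⟨hne, hn4⟩ := hcon
  have hK : (IntermediateField.adjoin (ZMod p) {(κ : F) ^ 3}).toSubalgebra = Algebra.adjoin (ZMod p) {(κ : F) ^ 3} :=
    IntermediateField.adjoin_simple_toSubalgebra_of_isAlgebraic (Algebra.IsAlgebraic.isAlgebraic _)
  rw [← hK] at hne
  have hne' : IntermediateField.adjoin (ZMod p) {(κ : F) ^ 3} ≠ ⊤ := by
    intro h; apply hne; rw [h]; exact IntermediateField.top_toSubalgebra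
  set K := IntermediateField.adjoin (ZMod p) {(κ : F) ^ 3} with hKd
  have hz : (κ : F) ^ 3 ∈ K := IntermediateField.mem_adjoin_simple_self _ _
  have hc : Nat.card F = Nat.card K ^ Module.finrank K F := Module.natCard_eq_pow_finrank
  have h1 : Module.finrank K F ≠ 1 := by
    intro h; exact hne' (IntermediateField.finrank_eq_one_iff_eq_top.1 h)
  have h0 : 0 < Module.finrank K F := Module.finrank_pos
  have hk2 : 2 ≤ Nat.card K := Finite.one_lt_card
  have hkk : Nat.card K * Nat.card K ≤ Nat.card F := by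
    rw [hc, ← pow_two]
    exact Nat.pow_le_pow_right (by omega) (by omega)
  letI : Fintype K := Fintype.ofFinite K
  have h2 : (⟨(κ : F) ^ 3, hz⟩ : K) ^ (Nat.card K - 1) = 1 := by
    rw [Nat.card_eq_fintype_card]
    exact FiniteField.pow_card_sub_one_eq_one _ (fun h => by
      have := congrArg Subtype.val h
      exact (pow_ne_zero 3 κ.ne_zero) this)
  have h3 : (κ : F) ^ (3 * (Nat.card K - 1)) = 1 := by
    rw [pow_mul]; exact congrArg Subtype.val h2
  have h4 : κ ^ (3 * (Nat.card K - 1)) = 1 := Units.ext (by push_cast; exact h3)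
  have h5 : orderOf κ = Nat.card F - 1 := by
    rw [orderOf_eq_card_of_forall_mem_zpowers hκ, Nat.card_units]
  have h6 := orderOf_dvd_of_pow_eq_one h4
  rw [h5] at h6
  have h7 := Nat.le_of_dvd (by omega) h6
  generalize Nat.card K = k at *
  generalize Nat.card F = q at *
  obtain ⟨k', rfl⟩ : ∃ k', k = k' + 2 := ⟨k - 2, by omega⟩
  have : q ≤ 3 * (k' + 1) + 1 := by omega
  have hk : k' = 0 := by nlinarith
  subst hk
  omega

theorem span (p : ℕ) [Fact p.Prime] [Algebra (ZMod p) F] {κ : Fˣ} (hκ : ∀ x, x ∈ Subgroup.zpowers κ) (hκ' : ∀ c : F, c ≠ 0 → ∃ n : ℕ, c = (κ : F) ^ n)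
    (A : AddSubgroup F) (h1 : ∀ j : ℕ, (κ : F) ^ (3 * j) ∈ A) (h2 : ∀ j : ℕ, (κ : F) ^ (3 * j) * κ ∈ A) : A = ⊤ := by
  rw [eq_top_iff]
  intro c _
  rcases adj3 (p := p) hκ with h | h
  · obtain ⟨f, rfl⟩ := ev_surj (p := p) h c
    rw [aeval_eq_sum_range]
    refine sum_mem fun i _ => ?_
    rw [← pow_mul]
    exact zsmul_mem (h1 i) _
  · by_cases hc : c = 0
    · rw [hc]; exact zero_mem A
    obtain ⟨n, rfl⟩ := hκ' c hc
    have h5 : orderOf κ = 3 := by
      rw [orderOf_eq_card_of_forall_mem_zpowers hκ, Nat.card_units, h]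
    have h6 : (κ : F) ≠ 1 := by
      intro h7
      have : κ = 1 := Units.ext h7
      rw [this, orderOf_one] at h5
      omega
    have h8 : (κ : F) ^ 3 = 1 := by
      have := pow_orderOf_eq_one κ
      rw [h5] at this
      have h7 := congrArg Units.val this
      rw [Units.val_pow_eq_pow_val] at h7
      exact h7
    have h9 : (κ : F) ^ 2 + κ + 1 = 0 := by
      have : ((κ : F) - 1) * ((κ : F) ^ 2 + κ + 1) = 0 := by linear_combination h8
      exact (mul_eq_zero.1 this).resolve_left (sub_ne_zero.2 h6)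
    have hn : n = 3 * (n / 3) + n % 3 := by omega
    have hm : n % 3 < 3 := Nat.mod_lt _ (by norm_num)
    rw [hn, pow_add]
    generalize n / 3 = a at *
    generalize n % 3 = b at *
    interval_cases b
    · rw [pow_zero, mul_one]; exact h1 a
    · rw [pow_one]; exact h2 a
    · have e : (κ : F) ^ (3 * a) * (κ : F) ^ 2 = -((κ : F) ^ (3 * a) + (κ : F) ^ (3 * a) * κ) := by linear_combination (κ : F) ^ (3 * a) * h9
      rw [e]
      exact neg_mem (add_mem (h1 a) (h2 a))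

end fld

section lists

def RmA (p : ℕ) (M : ℤ[X]) : List (FreeGroup (Fin 4)) :=
  [FreeGroup.of 0 ^ p,
   FreeGroup.of 0 * (FreeGroup.of 3 * FreeGroup.of 0 * (FreeGroup.of 3)⁻¹) * (FreeGroup.of 0)⁻¹ * (FreeGroup.of 3 * FreeGroup.of 0 * (FreeGroup.of 3)⁻¹)⁻¹,
   pwn (FreeGroup.of 0) (FreeGroup.of 3) M.coeff (M.natDegree + 1)]

def RmB (p j : ℕ) (M : ℤ[X]) : List (FreeGroup (Fin 4)) :=
  (FreeGroup.of 3 ^ j * FreeGroup.of 0 * (FreeGroup.of 3 ^ j)⁻¹ * (FreeGroup.of 0 * (FreeGroup.of 3 * FreeGroup.of 0 * (FreeGroup.of 3)⁻¹))⁻¹) :: RmA p M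

def D10 {H : Type*} [Group H] (m0 : ℕ) (u s c k : H) : List H :=
  [s * s,
   s * c * s⁻¹ * (c ^ 2)⁻¹,
   (c * s) * k * (c * s)⁻¹ * k⁻¹⁻¹,
   k * (c * k * c⁻¹) * ((c * k * c⁻¹) * k)⁻¹,
   k * (c * k * c⁻¹) * (c⁻¹ * k * c),
   (c⁻¹ * k * c) * u * (c⁻¹ * k * c)⁻¹ * (k * u * k⁻¹)⁻¹,
   u * (c * u * c⁻¹) * u⁻¹ * (c * u * c⁻¹)⁻¹ * ((c⁻¹ * s) * u * (c⁻¹ * s)⁻¹)⁻¹,
   (k * u * k⁻¹) * (c * u * c⁻¹) * (k * u * k⁻¹)⁻¹ * (c * u * c⁻¹)⁻¹ * ((c⁻¹ * s) * (k * u * k⁻¹) * (c⁻¹ * s)⁻¹)⁻¹,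
   s * (k ^ m0 * (u * (s * u * s⁻¹)⁻¹ * u))⁻¹,
   k * (((c⁻¹ * s) * (k * u * k⁻¹) * (c⁻¹ * s)⁻¹ * (c⁻¹ * (k⁻¹ * u * k) * c)⁻¹ * ((c⁻¹ * s) * (k * u * k⁻¹) * (c⁻¹ * s)⁻¹)) *
    ((c⁻¹ * s) * u * (c⁻¹ * s)⁻¹ * (c⁻¹ * u * c)⁻¹ * ((c⁻¹ * s) * u * (c⁻¹ * s)⁻¹))⁻¹)⁻¹]

theorem D10_iff {H : Type*} [Group H] (m0 : ℕ) (u s c k : H) : (∀ r ∈ D10 m0 u s c k, r = 1) ↔ Dat m0 u s c k := by
  simp only [D10, List.mem_cons, List.not_mem_nil, or_false, forall_eq_or_imp, forall_eq, mul_inv_eq_one]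
  constructor
  · rintro ⟨h1, h2, h3, h4, h5, h6, h7, h8, h9, h10⟩
    exact ⟨h1, h2, h3, h4, h5, h6, h7, h8, h9, h10⟩
  · intro D
    exact ⟨D.s2, D.sc, D.K1, D.Kc, D.K2, D.N2, D.P1, D.Pk, D.S, D.H⟩

theorem D10_map {H K : Type*} [Group H] [Group K] (f : H →* K) (m0 : ℕ) (u s c k : H) :
    (D10 m0 u s c k).map f = D10 m0 (f u) (f s) (f c) (f k) := by
  simp only [D10, List.map_cons, List.map_nil, map_mul, map_inv, map_pow]

end lists

theorem pres_of4 {m : ℕ} {S : Type*} [Group S] (s : Fin m → S) (hgen : Subgroup.closure (Set.range s) = ⊤) (R : List (FreeGroup (Fin m))) (n : ℕ)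
    (hlen : R.length ≤ n) (hR : ∀ r ∈ R, FreeGroup.lift s r = 1)
    (hφ : ∀ (G : Type) [Group G] (g : Fin m → G), (∀ r ∈ R, FreeGroup.lift g r = 1) → ∃ φ : S →* G, ∀ i, φ (s i) = g i) :
    ∃ rels : Finset (FreeGroup (Fin m)), rels.card ≤ n ∧ Nonempty (PresentedGroup (↑rels : Set (FreeGroup (Fin m))) ≃* S) := by
  classical
  refine ⟨R.toFinset, (List.toFinset_card_le R).trans hlen, ?_⟩
  have hs : ∀ r ∈ (↑R.toFinset : Set (FreeGroup (Fin m))), FreeGroup.lift s r = 1 := fun r hr => hR r (by simpa using hr)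
  let ψ : PresentedGroup (↑R.toFinset : Set (FreeGroup (Fin m))) →* S := PresentedGroup.toGroup hs
  have hψ : ∀ i, ψ (PresentedGroup.of i) = s i := fun i => PresentedGroup.toGroup.of hs
  obtain ⟨φ, h1⟩ := hφ (PresentedGroup (↑R.toFinset : Set (FreeGroup (Fin m)))) (fun i => PresentedGroup.of i) (by
    intro r hr
    have e : FreeGroup.lift (fun i => (PresentedGroup.of i : PresentedGroup (↑R.toFinset : Set (FreeGroup (Fin m))))) = PresentedGroup.mk _ := by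
      ext i; simp [PresentedGroup.of]
    rw [e]
    exact PresentedGroup.mk_eq_one_iff.2 (Subgroup.subset_normalClosure (by simpa using hr)))
  refine ⟨MonoidHom.toMulEquiv ψ φ ?_ ?_⟩
  · ext i
    show φ (ψ (PresentedGroup.of i)) = PresentedGroup.of i
    rw [hψ, h1]
  · apply MonoidHom.eq_of_eqOn_top
    have : Set.EqOn (ψ.comp φ) (MonoidHom.id S) (Set.range s) := by
      rintro _ ⟨i, rfl⟩
      show ψ (φ (s i)) = s i
      rw [h1, hψ]
    have h2 := MonoidHom.eqOn_closure this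
    rw [hgen] at h2
    exact h2

section fin

variable {F : Type*} [Field F] [Finite F] {p : ℕ} [Fact p.Prime] [Algebra (ZMod p) F]

def s3 {κ : F} (hκ0 : κ ≠ 0) : Fin 4 → Matrix.SpecialLinearGroup (Fin 3) F := ![tr 0 1 1, sM, cM, kM hκ0]

omit [Finite F] in
theorem tr_add (a b : F) : tr (n := 3) 0 1 a * tr 0 1 b = tr 0 1 (a + b) := (St_tr (K := F) 3).add 0 1 a b (by decide)

omit [Finite F] in
theorem tr_pwn {κ : F} (hκ0 : κ ≠ 0) (f : ℤ[X]) : pwn (tr (n := 3) 0 1 (1 : F)) (kM hκ0) f.coeff (f.natDegree + 1) = tr 0 1 (aeval κ f) :=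
  pwn_x (x := fun a : F => tr (n := 3) 0 1 a) tr_add (k01 hκ0) f

theorem gen3 {κ : F} (hκ0 : κ ≠ 0) (hA : Algebra.adjoin (ZMod p) {κ} = ⊤) : Subgroup.closure (Set.range (s3 hκ0)) = ⊤ := by
  rw [eq_top_iff, ← gen_tr 3 (by norm_num)]
  have h0 : ∀ i, s3 hκ0 i ∈ Subgroup.closure (Set.range (s3 hκ0)) := fun i => Subgroup.subset_closure ⟨i, rfl⟩
  have hs : (sM : Matrix.SpecialLinearGroup (Fin 3) F) ∈ Subgroup.closure (Set.range (s3 hκ0)) := h0 1
  have hc : (cM : Matrix.SpecialLinearGroup (Fin 3) F) ∈ Subgroup.closure (Set.range (s3 hκ0)) := h0 2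
  have hk : kM hκ0 ∈ Subgroup.closure (Set.range (s3 hκ0)) := h0 3
  have hu : tr 0 1 (1 : F) ∈ Subgroup.closure (Set.range (s3 hκ0)) := h0 0
  have hU : ∀ a : F, tr 0 1 a ∈ Subgroup.closure (Set.range (s3 hκ0)) := by
    intro a
    obtain ⟨f, hf⟩ := ev_surj (p := p) hA a
    have := tr_pwn hκ0 f
    rw [hf] at this
    rw [← this]
    generalize f.natDegree + 1 = n
    induction n with
    | zero => exact one_mem _
    | succ n ih => exact mul_mem ih (mul_mem (mul_mem (pow_mem hk _) (zpow_mem hu _)) (inv_mem (pow_mem hk _)))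
  have hall : ∀ i j l : Fin 3, i ≠ j → j ≠ l → i ≠ l → ∀ a : F, tr i j a ∈ Subgroup.closure (Set.range (s3 hκ0)) := by
    apply triples
    · exact hU
    · intro i j l hij hjl hil h a
      rw [← cM_conj i j hij]
      exact mul_mem (mul_mem hc (h a)) (inv_mem hc)
    · intro i j l hij hjl hil h a
      rw [← sM_conj i j hij]
      exact mul_mem (mul_mem hs (h a)) (inv_mem hs)
  refine (Subgroup.closure_le _).2 ?_
  rintro _ ⟨i, j, t, hij, rfl⟩
  have : ∀ i j : Fin 3, i ≠ j → ∃ l, j ≠ l ∧ i ≠ l := by decide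
  obtain ⟨l, h1, h2⟩ := this i j hij
  exact hall i j l hij h1 h2 t

theorem final (hF : True) {κ : Fˣ} (hκ : ∀ x, x ∈ Subgroup.zpowers κ) (hκ' : ∀ c : F, c ≠ 0 → ∃ n : ℕ, c = (κ : F) ^ n)
    (hA : Algebra.adjoin (ZMod p) {(κ : F)} = ⊤) (Rm : List (FreeGroup (Fin 4))) (hlen : Rm.length ≤ 4)
    (hS : ∀ r ∈ Rm, FreeGroup.lift (s3 κ.ne_zero) r = 1)
    (hG : ∀ (G : Type) [Group G] (g : Fin 4 → G), (∀ r ∈ Rm, FreeGroup.lift g r = 1) →
      ∃ x : F → G, (∀ a b, x a * x b = x (a + b)) ∧ (∀ a, g 3 * x a * (g 3)⁻¹ = x ((κ : F) * a)) ∧ x 1 = g 0) :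
    ∃ rels : Finset (FreeGroup (Fin 4)), rels.card ≤ 14 ∧
      Nonempty (PresentedGroup (↑rels : Set (FreeGroup (Fin 4))) ≃* Matrix.SpecialLinearGroup (Fin 3) F) := by
  obtain ⟨m0, hm0⟩ := hκ' (-1) (by simp)
  have hκi : ∀ x, x ∈ Subgroup.zpowers κ⁻¹ := fun x => by rw [Subgroup.zpowers_inv]; exact hκ x
  have hκi' : ∀ c : F, c ≠ 0 → ∃ n : ℕ, c = ((κ⁻¹ : Fˣ) : F) ^ n := by
    intro c hc
    obtain ⟨n, hn⟩ := hκ' c⁻¹ (inv_ne_zero hc)
    exact ⟨n, by rw [Units.val_inv_eq_inv_val, inv_pow, ← hn, inv_inv]⟩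
  refine pres_of4 (s3 κ.ne_zero) (gen3 κ.ne_zero hA) (Rm ++ D10 m0 (FreeGroup.of 0) (FreeGroup.of 1) (FreeGroup.of 2) (FreeGroup.of 3)) 14 ?_ ?_ ?_
  · rw [List.length_append]
    simp only [D10, List.length_cons, List.length_nil]
    omega
  · intro r hr
    rcases List.mem_append.1 hr with hr | hr
    · exact hS r hr
    · have h1 : FreeGroup.lift (s3 κ.ne_zero) r ∈ (D10 m0 (FreeGroup.of 0) (FreeGroup.of 1) (FreeGroup.of 2) (FreeGroup.of 3)).map (FreeGroup.lift (s3 κ.ne_zero)) :=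
        List.mem_map_of_mem hr
      rw [D10_map] at h1
      refine (D10_iff m0 _ _ _ _).2 ?_ _ h1
      simp only [FreeGroup.lift_apply_of]
      exact dat κ.ne_zero hm0.symm
  · intro G _ g hg
    obtain ⟨x, hx, hk, hx1⟩ := hG G g (fun r hr => hg r (List.mem_append.2 (Or.inl hr)))
    have D : Dat m0 (g 0) (g 1) (g 2) (g 3) := by
      rw [← D10_iff]
      have h1 := D10_map (FreeGroup.lift g) m0 (FreeGroup.of 0) (FreeGroup.of 1) (FreeGroup.of 2) (FreeGroup.of 3)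
      simp only [FreeGroup.lift_apply_of] at h1
      rw [← h1]
      intro r hr
      obtain ⟨r', hr', rfl⟩ := List.mem_map.1 hr
      exact hg r' (List.mem_append.2 (Or.inr hr'))
    obtain ⟨φ, f1, f2, f3, f4⟩ := exists_phi D κ.ne_zero hκ' hA hm0.symm hx hk hx1 (span p hκ hκ')
      (by
        have := span p hκi hκi'
        rw [Units.val_inv_eq_inv_val] at this
        exact this)
    refine ⟨φ, fun i => ?_⟩
    fin_cases i
    · exact f1
    · exact f2
    · exact f3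
    · exact f4

theorem main3 (p : ℕ) [Fact p.Prime] [Algebra (ZMod p) F] : ∃ rels : Finset (FreeGroup (Fin 4)), rels.card ≤ 14 ∧
      Nonempty (PresentedGroup (↑rels : Set (FreeGroup (Fin 4))) ≃* Matrix.SpecialLinearGroup (Fin 3) F) := by
  obtain ⟨κ, hκ, hκ'⟩ := exists_kappa (F := F)
  have hA2 := adj (p := p) hκ (m := 2) (Or.inl rfl)
  have hA : Algebra.adjoin (ZMod p) {(κ : F)} = ⊤ := by
    have h1 : (κ : F) ∈ Algebra.adjoin (ZMod p) {(κ : F)} := Algebra.self_mem_adjoin_singleton _ _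
    have h2 : Algebra.adjoin (ZMod p) {(κ : F) ^ 2} ≤ Algebra.adjoin (ZMod p) {(κ : F)} := by
      refine Algebra.adjoin_le ?_
      intro z hz
      rw [Set.mem_singleton_iff.1 hz]
      exact pow_mem h1 2
    rw [hA2] at h2
    exact top_le_iff.1 h2
  obtain ⟨M, hM, hMm, hMd⟩ := exists_M (p := p) (κ : F)
  have hUp : tr (n := 3) 0 1 (1 : F) ^ p = 1 := by
    have h0 := x_zpow (x := fun a : F => tr (n := 3) 0 1 a) tr_add 1 (p : ℤ)
    rw [zpow_natCast] at h0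
    haveI : CharP F p := by
      haveI : CharP (ZMod p) p := ZMod.charP p
      exact charP_of_injective_algebraMap (FaithfulSMul.algebraMap_injective (ZMod p) F) p
    have e : ((p : ℤ) • (1 : F)) = 0 := by simp
    rw [h0]
    show tr 0 1 ((p : ℤ) • (1 : F)) = 1
    rw [e]
    exact x_zero (x := fun a : F => tr (n := 3) 0 1 a) tr_add
  have hSA : ∀ r ∈ RmA p M, FreeGroup.lift (s3 κ.ne_zero) r = 1 := by
    simp only [RmA, List.mem_cons, List.not_mem_nil, or_false, forall_eq_or_imp, forall_eq, map_mul, map_inv, map_pow, pwn_map, FreeGroup.lift_apply_of]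
    refine ⟨hUp, ?_, ?_⟩
    · show tr 0 1 (1 : F) * (kM κ.ne_zero * tr 0 1 1 * (kM κ.ne_zero)⁻¹) * (tr 0 1 1)⁻¹ * (kM κ.ne_zero * tr 0 1 1 * (kM κ.ne_zero)⁻¹)⁻¹ = 1
      rw [k01, tr_add, add_comm, ← tr_add]; group
    · refine (tr_pwn κ.ne_zero M).trans ?_
      rw [aeval_M hM]
      exact x_zero (x := fun a : F => tr (n := 3) 0 1 a) tr_add
  by_cases he : 3 ≤ Module.finrank (ZMod p) F
  · have hne : (1 : F) + κ ≠ 0 := by
      intro h0
      have h1 : (κ : F) ∈ (⊥ : Subalgebra (ZMod p) F) := by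
        rw [Algebra.mem_bot]
        exact ⟨-1, by rw [map_neg, map_one]; linear_combination -h0⟩
      have h2 : Algebra.adjoin (ZMod p) {(κ : F)} ≤ (⊥ : Subalgebra (ZMod p) F) := Algebra.adjoin_le (Set.singleton_subset_iff.2 h1)
      rw [hA, top_le_iff] at h2
      have h3 := Subalgebra.bot_eq_top_iff_finrank_eq_one.1 h2
      omega
    obtain ⟨j, hj⟩ := hκ' _ hne
    refine final (p := p) trivial hκ hκ' hA (RmB p j M) (by simp [RmB, RmA]) ?_ ?_
    · intro r hr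
      rcases List.mem_cons.1 hr with rfl | hr
      · simp only [map_mul, map_inv, map_pow, FreeGroup.lift_apply_of]
        show kM κ.ne_zero ^ j * tr 0 1 (1 : F) * (kM κ.ne_zero ^ j)⁻¹ * (tr 0 1 1 * (kM κ.ne_zero * tr 0 1 1 * (kM κ.ne_zero)⁻¹))⁻¹ = 1
        rw [k01, tr_add, mul_inv_eq_one, mul_one, hj]
        have := pow_act (x := fun a : F => tr (n := 3) 0 1 a) (k01 κ.ne_zero) j 1
        rw [mul_one] at this
        exact this
      · exact hSA r hr
    · intro G _ g hg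
      simp only [RmB, RmA, List.mem_cons, List.not_mem_nil, or_false, forall_eq_or_imp, forall_eq, map_mul, map_inv, map_pow, pwn_map, FreeGroup.lift_apply_of] at hg
      obtain ⟨r3, r1, r2, r4⟩ := hg
      have hcomm : Commute (g 0) (cu (g 0) (g 3) 1) := by
        rw [cu_one]
        exact mul_inv_eq_iff_eq_mul.1 (mul_inv_eq_one.1 r2)
      have hC := trick (u := g 0) (a := g 3) (b := g 3 ^ j) (c := 1) (Or.inl rfl) ((Commute.refl (g 3)).pow_right j) hcomm (by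
        rw [cu_one, zpow_one]; exact mul_inv_eq_one.1 r3)
      obtain ⟨x, hx, ha, hx1, -⟩ := exists_x hC r1 hM r4 hA
      exact ⟨x, hx, ha, hx1⟩
  · refine final (p := p) trivial hκ hκ' hA (RmA p M) (by simp [RmA]) hSA ?_
    intro G _ g hg
    simp only [RmA, List.mem_cons, List.not_mem_nil, or_false, forall_eq_or_imp, forall_eq, map_mul, map_inv, map_pow, pwn_map, FreeGroup.lift_apply_of] at hg
    obtain ⟨r1, r2, r4⟩ := hg
    have hcomm : Commute (g 0) (cu (g 0) (g 3) 1) := by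
      rw [cu_one]
      exact mul_inv_eq_iff_eq_mul.1 (mul_inv_eq_one.1 r2)
    have hd : M.natDegree = 1 ∨ M.natDegree = 2 := by
      rw [hMd]
      have h1 := minpoly.natDegree_le (A := ZMod p) (κ : F)
      have h2 := minpoly.natDegree_pos (A := ZMod p) (Algebra.IsIntegral.isIntegral (κ : F))
      omega
    have hC := comm_small (u := g 0) (a := g 3) hcomm (pwn_small hd hMm.coeff_natDegree r4)
    obtain ⟨x, hx, ha, hx1, -⟩ := exists_x hC r1 hM r4 hA
    exact ⟨x, hx, ha, hx1⟩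

end fin

theorem s2287 {F : Type*} [Field F] [Fintype F] (hq9 : Fintype.card F ≠ 9) : ∃ rels : Finset (FreeGroup (Fin 4)), rels.card ≤ 14 ∧ Nonempty (PresentedGroup (↑rels : Set (FreeGroup (Fin 4))) ≃* Matrix.SpecialLinearGroup (Fin 3) F) := by
  obtain ⟨p, hp⟩ := CharP.exists F
  haveI : Fact p.Prime := ⟨CharP.char_is_prime F p⟩
  letI : Algebra (ZMod p) F := ZMod.algebra F p
  exact main3 p

end Cfsg.Agent.H14.Ps
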