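import Mathlib
import Cfsg.Agent.H14_SylowSym

set_option autoImplicit false

/-!
Sylow 2-subgroups of symmetric/alternating groups in a unique maximal subgroup.
-/

namespace Cfsg.Agent.H14.SylowMax

open Equiv Equiv.Perm MulAction Cfsg.Agent.H14.SylowSym
open scoped Pointwise

/-- exactly one maximal subgroup above `R` -/
def UM {G : Type*} [Group G] (R : Subgroup G) : Prop := ∃! M : Subgroup G, IsCoatom M ∧ R ≤ M

theorem UM_map {G H : Type*} [Group G] [Group H] (e : G ≃* H) (R : Subgroup G) :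
    UM (R.map e.toMonoidHom) ↔ UM R := by
  have := Equiv.existsUnique_congr (p := fun M : Subgroup G => IsCoatom M ∧ R ≤ M)
    (q := fun M : Subgroup H => IsCoatom M ∧ R.map e.toMonoidHom ≤ M) e.mapSubgroup.toEquiv (by
      intro M
      have h1 : IsCoatom (e.mapSubgroup M) ↔ IsCoatom M := e.mapSubgroup.isCoatom_iff M
      have h2 : e.mapSubgroup R ≤ e.mapSubgroup M ↔ R ≤ M := e.mapSubgroup.le_iff_le
      change _ ↔ IsCoatom (e.mapSubgroup M) ∧ e.mapSubgroup R ≤ e.mapSubgroup M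
      rw [h1, h2])
  exact this.symm

theorem UM_sylow_of_one {G : Type*} [Group G] [Finite G] (c : Prop) (R : Sylow 2 G)
    (h : UM (R : Subgroup G) ↔ c) (Q : Sylow 2 G) : UM (Q : Subgroup G) ↔ c := by
  obtain ⟨g, rfl⟩ := MulAction.exists_smul_eq G R Q
  rw [← h]
  exact UM_map (MulAut.conj g) (R : Subgroup G)

theorem UM_sylow_congr {G H : Type*} [Group G] [Group H] [Finite G] (e : G ≃* H) (c : Prop)
    (h : ∀ R : Sylow 2 G, UM (R : Subgroup G) ↔ c) (Q : Sylow 2 H) : UM (Q : Subgroup H) ↔ c := by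
  have : Finite H := Finite.of_equiv G e.toEquiv
  obtain ⟨P, hP⟩ := Sylow.mapSurjective_surjective (f := e.toMonoidHom) e.surjective 2 Q
  have hPQ : (Q : Subgroup H) = (P : Subgroup G).map e.toMonoidHom := by
    rw [← hP]; rfl
  rw [hPQ, UM_map, h]

variable {m r : ℕ}

/-- Some Sylow 2-subgroup of `G'` centralizes the pairing. -/
theorem exists_sylow_le_W (hm : 1 ≤ m) (hr : r ≤ 1) (G' : Subgroup (Perm (Pt m r)))
    (hA : alternatingGroup (Pt m r) ≤ G') :
    ∃ R : Sylow 2 G', (R : Subgroup G') ≤ (W m r).subgroupOf G' := by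
  obtain ⟨R0⟩ : Nonempty (Sylow 2 G') := inferInstance
  have hp : IsPGroup 2 ((R0 : Subgroup G').map G'.subtype) := R0.isPGroup'.map _
  obtain ⟨g, hg⟩ := exists_conj_le (p := 2) _ (W m r) hp (by
    rw [← even_iff_two_dvd]; exact Nat.not_even_iff_odd.2 (index_W m r hr))
  obtain ⟨g', hg'⟩ : ∃ g' : G', ∀ x ∈ (R0 : Subgroup G').map G'.subtype,
      (g' : Perm (Pt m r))⁻¹ * x * g' ∈ W m r := by
    by_cases hgG : g ∈ G'
    · exact ⟨⟨g, hgG⟩, hg⟩
    · have hodd : Equiv.Perm.sign g = -1 := by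
        rcases Int.units_eq_one_or (Equiv.Perm.sign g) with h | h
        · exact absurd (hA h) hgG
        · exact h
      set a : Pt m r := Sum.inl (⟨0, by omega⟩, true) with ha
      set w := Equiv.swap a (tau m r a) with hw
      have hwW : w ∈ W m r := Bgp_le_W (swap_mem_Bgp m r a)
      have hgw : g * w ∈ G' := by
        apply hA
        rw [Equiv.Perm.mem_alternatingGroup, map_mul, hodd, hw,
          Equiv.Perm.sign_swap (by rw [ha]; exact (tau_ne m r _ _).symm)]
        rfl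
      refine ⟨⟨g * w, hgw⟩, fun x hx => ?_⟩
      have h1 := hg x hx
      have h2 : (g * w)⁻¹ * x * (g * w) = w⁻¹ * (g⁻¹ * x * g) * w := by group
      change (g * w)⁻¹ * x * (g * w) ∈ W m r
      rw [h2]
      exact mul_mem (mul_mem (inv_mem hwW) h1) hwW
  refine ⟨g'⁻¹ • R0, ?_⟩
  intro x hx
  rw [Sylow.coe_subgroup_smul, Subgroup.mem_pointwise_smul_iff_inv_smul_mem] at hx
  have h3 := hg' _ ⟨_, hx, rfl⟩
  rw [Subgroup.mem_subgroupOf]
  simpa [MulAut.smul_def, mul_assoc] using h3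

theorem BA_le (G' : Subgroup (Perm (Pt m r))) (R : Sylow 2 G')
    (hR : (R : Subgroup G') ≤ (W m r).subgroupOf G') :
    (Bgp m r ⊓ alternatingGroup (Pt m r)).subgroupOf G' ≤ (R : Subgroup G') := by
  apply le_sylow_of_normal R
  · intro g
    refine ⟨1, ?_⟩
    apply Subtype.ext
    apply Subtype.ext
    rw [pow_one, pow_two]
    exact Bgp_sq g.2.1
  · intro w hw
    have hwW : (w : Perm (Pt m r)) ∈ W m r := hR hw
    rw [Subgroup.mem_normalizer_iff]
    intro g
    have h1 := Subgroup.mem_normalizer_iff.1 (W_le_normalizer m r hwW) (g : Perm (Pt m r))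
    rw [Subgroup.mem_subgroupOf, Subgroup.mem_subgroupOf, Subgroup.mem_inf, Subgroup.mem_inf,
      Equiv.Perm.mem_alternatingGroup, Equiv.Perm.mem_alternatingGroup]
    have h2 : Equiv.Perm.sign (((w * g * w⁻¹ : G')) : Perm (Pt m r)) = Equiv.Perm.sign (g : Perm (Pt m r)) := by
      rw [Subgroup.coe_mul, Subgroup.coe_mul, Subgroup.coe_inv, map_mul, map_mul, map_inv, mul_comm (Equiv.Perm.sign (w : Perm (Pt m r))), mul_assoc, mul_inv_cancel, mul_one]
    rw [h2]
    exact and_congr_left' h1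

theorem eq_top_of_alt_le {α : Type*} [Fintype α] [DecidableEq α] [Nontrivial α] (G' : Subgroup (Perm α)) (R : Sylow 2 G')
    (M : Subgroup G') (hRM : (R : Subgroup G') ≤ M)
    (hAM : (alternatingGroup α).subgroupOf G' ≤ M) : M = ⊤ := by
  have h1 : M.index ∣ 2 := by
    refine (Subgroup.index_dvd_of_le hAM).trans ?_
    have := Subgroup.relIndex_dvd_index_of_normal (alternatingGroup α) G'
    rwa [alternatingGroup.index_eq_two] at this
  have h2 : ¬ 2 ∣ M.index := fun h => R.not_dvd_index (h.trans (Subgroup.index_dvd_of_le hRM))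
  rcases (Nat.dvd_prime Nat.prime_two).1 h1 with h | h
  · exact Subgroup.index_eq_one.1 h
  · rw [h] at h2; exact absurd (dvd_refl 2) h2

/-! ### Transitivity of the Sylow subgroup when the number of pairs is a power of 2 -/

theorem trans_step {R : Subgroup (Perm (Pt m r))} (hRW : R ≤ W m r)
    (hb : ∀ x : Pt m r, ∃ b ∈ R, b x = tau m r x)
    (ht : ∀ i j : Fin m, ∃ g ∈ R, act g i = j) (x y : Pt m r) (hx : tau m r x ≠ x)
    (hy : tau m r y ≠ y) : ∃ g ∈ R, g x = y := by
  obtain ⟨i, b, rfl⟩ := exists_inl_of_tau_ne hx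
  obtain ⟨j, c, rfl⟩ := exists_inl_of_tau_ne hy
  obtain ⟨g, hg, hgij⟩ := ht i j
  obtain ⟨d, hd⟩ := act_spec (hRW hg) i b
  rw [hgij] at hd
  rcases Bool.eq_or_eq_not d c with h | h
  · exact ⟨g, hg, by rw [hd, h]⟩
  · obtain ⟨b', hb', hb''⟩ := hb (Sum.inl (j, d))
    refine ⟨b' * g, mul_mem hb' hg, ?_⟩
    rw [Perm.mul_apply, hd, hb'', tau_inl, h, Bool.not_not]

/-- a group is 2-Sylow-transitive -/
def ST (n : ℕ) : Prop := ∀ Q : Sylow 2 (Perm (Fin n)), ∀ i j : Fin n, ∃ g ∈ (Q : Subgroup (Perm (Fin n))), g i = j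

theorem sign_lift (m r : ℕ) (σ : Perm (Fin m)) : Equiv.Perm.sign (lift m r σ) = 1 := by
  have h1 : lift m r σ = Equiv.sumCongr (Equiv.prodCongrLeft (fun _ : Bool => σ)) (Equiv.refl (Fin r)) := by
    ext1 x
    rcases x with ⟨i, b⟩ | i <;> rfl
  rw [h1, Equiv.Perm.sign_sumCongr, Equiv.Perm.sign_prodCongrLeft]
  rw [show (Equiv.refl (Fin r)) = 1 from rfl, map_one, mul_one, Fintype.prod_bool]
  exact Int.units_mul_self _

theorem surj_W (G' : Subgroup (Perm (Pt m r))) (hA : alternatingGroup (Pt m r) ≤ G') :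
    ∃ f : (W m r).subgroupOf G' →* Perm (Fin m), Function.Surjective f ∧
      ∀ g i, f g i = act ((g : G') : Perm (Pt m r)) i := by
  refine ⟨(phi m r).comp
    { toFun := fun g => ⟨((g : G') : Perm (Pt m r)), g.2⟩, map_one' := rfl, map_mul' := fun _ _ => rfl },
    ?_, fun g i => rfl⟩
  intro σ
  exact ⟨⟨⟨lift m r σ, hA (sign_lift m r σ)⟩, lift_mem m r σ⟩, by ext1 i; rfl⟩

theorem act_trans_of_ST (hST : ST m) (G' : Subgroup (Perm (Pt m r))) (hA : alternatingGroup (Pt m r) ≤ G')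
    (R : Sylow 2 G') (hR : (R : Subgroup G') ≤ (W m r).subgroupOf G') (i j : Fin m) :
    ∃ g ∈ (R : Subgroup G').map G'.subtype, act g i = j := by
  obtain ⟨f, hf, hf'⟩ := surj_W G' hA
  obtain ⟨h, hh, hij⟩ := hST ((R.subtype hR).mapSurjective hf) i j
  rw [Sylow.coe_mapSurjective] at hh
  obtain ⟨q, hq, rfl⟩ := hh
  rw [hf'] at hij
  exact ⟨((q : G') : Perm (Pt m r)), ⟨(q : G'), hq, rfl⟩, hij⟩

theorem swap2_mem (G' : Subgroup (Perm (Pt m r))) (hA : alternatingGroup (Pt m r) ≤ G') (R : Sylow 2 G')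
    (hR : (R : Subgroup G') ≤ (W m r).subgroupOf G') (x y : Pt m r) (hx : tau m r x ≠ x) (hy : tau m r y ≠ y) :
    Equiv.swap x (tau m r x) * Equiv.swap y (tau m r y) ∈ (R : Subgroup G').map G'.subtype := by
  have h1 : Equiv.swap x (tau m r x) * Equiv.swap y (tau m r y) ∈ alternatingGroup (Pt m r) := by
    rw [Equiv.Perm.mem_alternatingGroup, map_mul, Equiv.Perm.sign_swap hx.symm, Equiv.Perm.sign_swap hy.symm]
    rfl
  have h2 : (⟨_, hA h1⟩ : G') ∈ (R : Subgroup G') :=
    BA_le G' R hR ⟨mul_mem (swap_mem_Bgp m r x) (swap_mem_Bgp m r y), h1⟩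
  exact ⟨_, h2, rfl⟩

theorem trans_of_ST (hm : 2 ≤ m) (hST : ST m) (G' : Subgroup (Perm (Pt m r))) (hA : alternatingGroup (Pt m r) ≤ G')
    (R : Sylow 2 G') (hR : (R : Subgroup G') ≤ (W m r).subgroupOf G') (x y : Pt m r)
    (hx : tau m r x ≠ x) (hy : tau m r y ≠ y) : ∃ g ∈ (R : Subgroup G').map G'.subtype, g x = y := by
  have hRW : (R : Subgroup G').map G'.subtype ≤ W m r := by
    rintro _ ⟨g, hg, rfl⟩
    exact hR hg
  refine trans_step hRW ?_ (act_trans_of_ST hST G' hA R hR) x y hx hy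
  intro z
  by_cases hz : tau m r z = z
  · exact ⟨1, one_mem _, hz.symm⟩
  obtain ⟨i, b, rfl⟩ := exists_inl_of_tau_ne hz
  obtain ⟨j, hj⟩ : ∃ j : Fin m, j ≠ i := by
    have := i.2
    by_cases h0 : i.val = 0
    · exact ⟨⟨1, by omega⟩, by simp [Fin.ext_iff, h0]⟩
    · exact ⟨⟨0, by omega⟩, by rw [Ne, Fin.ext_iff]; exact fun h => h0 h.symm⟩
  refine ⟨_, swap2_mem G' hA R hR (Sum.inl (i, b)) (Sum.inl (j, true)) (tau_ne m r _ _) (tau_ne m r _ _), ?_⟩
  have hne1 : (Sum.inl (i, b) : Pt m r) ≠ Sum.inl (j, true) := by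
    intro h; exact hj (Prod.mk.inj (Sum.inl_injective h)).1.symm
  have hne2 : (Sum.inl (i, b) : Pt m r) ≠ tau m r (Sum.inl (j, true)) := by
    rw [tau_inl]
    intro h; exact hj (Prod.mk.inj (Sum.inl_injective h)).1.symm
  rw [Perm.mul_apply, Equiv.swap_apply_of_ne_of_ne hne1 hne2, Equiv.swap_apply_left]

theorem ST_congr {α : Type*} [Fintype α] [DecidableEq α] {n : ℕ} (e : α ≃ Fin n)
    (h : ∀ Q : Sylow 2 (Perm α), ∀ i j : α, ∃ g ∈ (Q : Subgroup (Perm α)), g i = j) : ST n := by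
  intro Q i j
  obtain ⟨P, hP⟩ := Sylow.mapSurjective_surjective (f := e.permCongrHom.toMonoidHom) e.permCongrHom.surjective 2 Q
  obtain ⟨g, hg, hij⟩ := h P (e.symm i) (e.symm j)
  have hPQ : (Q : Subgroup (Perm (Fin n))) = (P : Subgroup (Perm α)).map e.permCongrHom.toMonoidHom := by
    rw [← hP]; rfl
  refine ⟨e.permCongrHom g, ?_, ?_⟩
  · rw [hPQ]
    exact ⟨g, hg, rfl⟩
  · change e (g (e.symm i)) = j
    rw [hij, Equiv.apply_symm_apply]

theorem ST_two_pow (k : ℕ) : ST (2 ^ k) := by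
  induction k with
  | zero =>
    intro Q i j
    exact ⟨1, one_mem _, by
      have h : ∀ a b : Fin (2 ^ 0), a = b := by
        intro a b
        have h1 : a.val < 1 := a.2
        have h2 : b.val < 1 := b.2
        apply Fin.ext; omega
      exact h _ _⟩
  | succ k ih =>
    set m := 2 ^ k with hm
    obtain ⟨e⟩ : Nonempty (Pt m 0 ≃ Fin (2 ^ (k + 1))) := by
      apply Fintype.card_eq.1
      simp only [Pt, Fintype.card_sum, Fintype.card_prod, Fintype.card_fin, Fintype.card_bool]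
      rw [hm]; ring
    apply ST_congr e
    -- one Sylow inside W
    obtain ⟨Q0, hQ0⟩ := exists_sylow_le (W m 0) (index_W m 0 (by omega))
    have hB : Bgp m 0 ≤ (Q0 : Subgroup (Perm (Pt m 0))) :=
      le_sylow_of_normal Q0 _ (Bgp_isPGroup m 0) (hQ0.trans (W_le_normalizer m 0))
    have hQ0t : ∀ x y : Pt m 0, ∃ g ∈ (Q0 : Subgroup (Perm (Pt m 0))), g x = y := by
      intro x y
      refine trans_step hQ0 ?_ ?_ x y ?_ ?_
      · intro z
        exact ⟨_, hB (swap_mem_Bgp m 0 z), Equiv.swap_apply_left _ _⟩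
      · intro i j
        obtain ⟨h, hh, hij⟩ := ih ((Q0.subtype hQ0).mapSurjective (phi_surjective m 0)) i j
        rw [Sylow.coe_mapSurjective] at hh
        obtain ⟨q, hq, rfl⟩ := hh
        exact ⟨(q : Perm (Pt m 0)), hq, hij⟩
      · rcases x with ⟨i, b⟩ | i
        · exact tau_ne m 0 i b
        · exact i.elim0
      · rcases y with ⟨i, b⟩ | i
        · exact tau_ne m 0 i b
        · exact i.elim0
    intro Q x y
    obtain ⟨g, rfl⟩ := MulAction.exists_smul_eq (Perm (Pt m 0)) Q0 Q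
    obtain ⟨h, hh, hxy⟩ := hQ0t (g⁻¹ x) (g⁻¹ y)
    refine ⟨g * h * g⁻¹, ?_, ?_⟩
    · rw [Sylow.coe_subgroup_smul, Subgroup.mem_pointwise_smul_iff_inv_smul_mem]
      have : (MulAut.conj g)⁻¹ • (g * h * g⁻¹) = h := by
        simp [MulAut.smul_def, mul_assoc]
      rw [this]; exact hh
    · rw [Perm.mul_apply, Perm.mul_apply, hxy, perm_apply_inv]

/-! ### A 3-cycle from two double transpositions -/

theorem isThreeCycle_of {α : Type*} [Fintype α] [DecidableEq α] {w a b c c' e e' : α}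
    (h : [w, a, b, c, c', e, e'].Nodup) :
    IsThreeCycle ((Equiv.swap w a * Equiv.swap c c' * (Equiv.swap a b * Equiv.swap e e')) *
      (Equiv.swap w a * Equiv.swap c c' * (Equiv.swap a b * Equiv.swap e e'))) := by
  simp only [List.nodup_cons, List.mem_cons, List.not_mem_nil, or_false, not_or, List.nodup_nil,
    and_true, not_false_eq_true] at h
  obtain ⟨⟨h1, h2, h3, h4, h5, h6⟩, ⟨h7, h8, h9, h10, h11⟩, ⟨h12, h13, h14, h15⟩, ⟨h16, h17, h18⟩,
    ⟨h19, h20⟩, h21⟩ := h
  have cCB : Commute (Equiv.swap c c') (Equiv.swap a b) := (Equiv.Perm.disjoint_swap_swap (by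
    simp only [List.nodup_cons, List.mem_cons, List.not_mem_nil, or_false, not_or, List.nodup_nil,
      and_true, not_false_eq_true]; tauto)).commute
  have cCA : Commute (Equiv.swap c c') (Equiv.swap w a) := (Equiv.Perm.disjoint_swap_swap (by
    simp only [List.nodup_cons, List.mem_cons, List.not_mem_nil, or_false, not_or, List.nodup_nil,
      and_true, not_false_eq_true]; tauto)).commute
  have cEA : Commute (Equiv.swap e e') (Equiv.swap w a) := (Equiv.Perm.disjoint_swap_swap (by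
    simp only [List.nodup_cons, List.mem_cons, List.not_mem_nil, or_false, not_or, List.nodup_nil,
      and_true, not_false_eq_true]; tauto)).commute
  have cEB : Commute (Equiv.swap e e') (Equiv.swap a b) := (Equiv.Perm.disjoint_swap_swap (by
    simp only [List.nodup_cons, List.mem_cons, List.not_mem_nil, or_false, not_or, List.nodup_nil,
      and_true, not_false_eq_true]; tauto)).commute
  have cCE : Commute (Equiv.swap c c') (Equiv.swap e e') := (Equiv.Perm.disjoint_swap_swap (by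
    simp only [List.nodup_cons, List.mem_cons, List.not_mem_nil, or_false, not_or, List.nodup_nil,
      and_true, not_false_eq_true]; tauto)).commute
  set A := Equiv.swap w a with hA
  set B := Equiv.swap a b with hB
  set C := Equiv.swap c c' with hC
  set E := Equiv.swap e e' with hE
  have e1 : A * C * (B * E) = (A * B) * (C * E) := by
    rw [mul_assoc, mul_assoc, ← mul_assoc C B E, cCB.eq, mul_assoc]
  have c2 : Commute (A * B) (C * E) :=
    (Commute.mul_right (cCA.symm.mul_left cCB.symm) (cEA.symm.mul_left cEB.symm))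
  have e2 : (A * C * (B * E)) * (A * C * (B * E)) = (A * B) * (A * B) := by
    rw [e1, ← pow_two, c2.mul_pow, cCE.mul_pow]
    have : C ^ 2 = 1 := by rw [pow_two, hC, Equiv.swap_mul_self]
    have : E ^ 2 = 1 := by rw [pow_two, hE, Equiv.swap_mul_self]
    simp [*, pow_two]
  rw [e2]
  apply IsThreeCycle.isThreeCycle_sq
  rw [hA, hB, Equiv.swap_comm w a]
  exact Equiv.Perm.isThreeCycle_swap_mul_swap_same (Ne.symm h1) h7 h2

theorem two_trans {α : Type*} (M : Subgroup (Perm α)) (w : α)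
    (htr : ∀ x y, x ≠ w → y ≠ w → ∃ g ∈ M, g w = w ∧ g x = y) {g0 : Perm α} (hg0 : g0 ∈ M)
    (hne : g0 w ≠ w) : IsMultiplyPretransitive M α 2 := by
  have htr1 : ∀ x, ∃ g ∈ M, g x = w := by
    intro x
    by_cases hx : x = w
    · exact ⟨1, one_mem _, hx⟩
    · obtain ⟨h, hh, _, h2⟩ := htr x (g0 w) hx hne
      exact ⟨g0⁻¹ * h, mul_mem (inv_mem hg0) hh, by rw [Perm.mul_apply, h2, perm_inv_apply]⟩
  rw [is_two_pretransitive_iff]
  intro a b c d hab hcd
  obtain ⟨g1, hg1, h1⟩ := htr1 a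
  obtain ⟨g2, hg2, h2⟩ := htr1 c
  have h3 : g1 b ≠ w := fun h => hab (g1.injective (h1.trans h.symm))
  have h4 : g2 d ≠ w := fun h => hcd (g2.injective (h2.trans h.symm))
  obtain ⟨h, hh, h5, h6⟩ := htr (g1 b) (g2 d) h3 h4
  refine ⟨⟨g2⁻¹ * h * g1, mul_mem (mul_mem (inv_mem hg2) hh) hg1⟩, ?_, ?_⟩
  · change g2⁻¹ (h (g1 a)) = c
    rw [h1, h5, ← h2, perm_inv_apply]
  · change g2⁻¹ (h (g1 b)) = d
    rw [h6, perm_inv_apply]

theorem fix_iff {m : ℕ} (x : Pt m 1) : tau m 1 x = x ↔ x = Sum.inr 0 := by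
  constructor
  · intro h
    exact eq_of_tau_fix le_rfl h rfl
  · rintro rfl; rfl

theorem alt_le_of_moves {m : ℕ} (hm : 4 ≤ m) (M : Subgroup (Perm (Pt m 1)))
    (hsw : ∀ x y, tau m 1 x ≠ x → tau m 1 y ≠ y → Equiv.swap x (tau m 1 x) * Equiv.swap y (tau m 1 y) ∈ M)
    (htr : ∀ x y, x ≠ Sum.inr 0 → y ≠ Sum.inr 0 → ∃ g ∈ M, g (Sum.inr 0) = Sum.inr 0 ∧ g x = y)
    {g0 : Perm (Pt m 1)} (hg0 : g0 ∈ M) (hne : g0 (Sum.inr 0) ≠ Sum.inr 0) :
    alternatingGroup (Pt m 1) ≤ M := by
  have h2t := two_trans M (Sum.inr 0) htr hg0 hne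
  have hprim : IsPreprimitive M (Pt m 1) := isPreprimitive_of_is_two_pretransitive h2t
  set w : Pt m 1 := Sum.inr 0 with hw
  set t := tau m 1 with ht
  set v := g0 w with hv
  set s : Perm (Pt m 1) := g0 * t * g0⁻¹ with hs
  have htt : ∀ x, t (t x) = x := tau_tau m 1
  have tw : t w = w := rfl
  have hsx : ∀ x, s x = g0 (t (g0⁻¹ x)) := fun x => rfl
  have hss : ∀ x, s (s x) = x := by
    intro x
    rw [hsx, hsx, perm_inv_apply, htt, perm_apply_inv]
  have hsv : s v = v := by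
    rw [hsx, hv, perm_inv_apply, tw]
  have hsfix : ∀ x, s x = x → x = v := by
    intro x hx
    have h1 : t (g0⁻¹ x) = g0⁻¹ x := by
      rw [hsx] at hx
      apply g0.injective
      rw [hx, perm_apply_inv]
    have h2 := (fix_iff _).1 h1
    rw [hv, hw, ← h2, perm_apply_inv]
  have htfix : ∀ x, t x = x → x = w := fun x hx => (fix_iff x).1 hx
  have hinj : ∀ x y, t x = t y → x = y := fun x y h => t.injective h
  have hsinj : ∀ x y, s x = s y → x = y := fun x y h => s.injective h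
  have hssw : ∀ x y, s x ≠ x → s y ≠ y → Equiv.swap x (s x) * Equiv.swap y (s y) ∈ M := by
    intro x y hx hy
    have h1 : t (g0⁻¹ x) ≠ g0⁻¹ x := by
      intro h; apply hx; rw [hsx, h, perm_apply_inv]
    have h2 : t (g0⁻¹ y) ≠ g0⁻¹ y := by
      intro h; apply hy; rw [hsx, h, perm_apply_inv]
    have h3 := mul_mem (mul_mem hg0 (hsw _ _ h1 h2)) (inv_mem hg0)
    have h4 : g0 * (Equiv.swap (g0⁻¹ x) (t (g0⁻¹ x)) * Equiv.swap (g0⁻¹ y) (t (g0⁻¹ y))) * g0⁻¹ =
        (g0 * Equiv.swap (g0⁻¹ x) (t (g0⁻¹ x)) * g0⁻¹) * (g0 * Equiv.swap (g0⁻¹ y) (t (g0⁻¹ y)) * g0⁻¹) := by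
      group
    rw [h4, conj_swap_eq, conj_swap_eq, perm_apply_inv, perm_apply_inv, ← hsx, ← hsx] at h3
    exact h3
  have hwv : w ≠ v := fun h => hne h.symm
  set a := s w with ha
  have haw : a ≠ w := fun h => hwv (hsfix w h)
  have hav : a ≠ v := by
    intro h
    apply hwv
    apply hsinj
    rw [hsv, ← ha, h]
  have hsa : s a = w := by rw [ha, hss]
  have hta : t a ≠ a := fun h => haw (htfix a h)
  have htaw : t a ≠ w := fun h => haw (by rw [← htt a, h, tw])
  have htv : t v ≠ v := fun h => hwv (htfix v h).symm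
  have htvw : t v ≠ w := fun h => hwv (by rw [← htt v, h, tw])
  have hcard : Fintype.card (Pt m 1) = 2 * m + 1 := by
    simp [Pt, Fintype.card_sum, mul_comm]
  -- choice of the second pair
  have hex : ∀ l : List (Pt m 1), l.length ≤ 8 → ∃ c, c ∉ l := by
    intro l hl
    by_contra hcon
    push Not at hcon
    have h1 : (Finset.univ : Finset (Pt m 1)) ⊆ l.toFinset := fun x _ => List.mem_toFinset.2 (hcon x)
    have h2 := Finset.card_le_card h1
    have h3 := l.toFinset_card_le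
    rw [Finset.card_univ, hcard] at h2
    omega
  obtain ⟨e, hew, hea, heta, hcase⟩ : ∃ e, e ≠ w ∧ e ≠ a ∧ e ≠ t a ∧ (e = v ∨ t a = v) := by
    by_cases h : t a = v
    · obtain ⟨e, he⟩ := hex [w, a, t a] (by simp)
      simp only [List.mem_cons, List.not_mem_nil, or_false, not_or] at he
      exact ⟨e, he.1, he.2.1, he.2.2, Or.inr h⟩
    · exact ⟨v, hwv.symm, hav.symm, fun h' => h h'.symm, Or.inl rfl⟩
  have htew : t e ≠ w := fun h => hew (by rw [← htt e, h, tw])
  have htea : t e ≠ a := fun h => heta (by rw [← h, htt])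
  have hteta : t e ≠ t a := fun h => hea (hinj _ _ h)
  have htee : t e ≠ e := fun h => hew (htfix e h)
  obtain ⟨c, hcl, hcsl⟩ : ∃ c, c ∉ [w, a, v, t a, e, t e] ∧ s c ∉ [w, a, v, t a, e, t e] := by
    rcases hcase with h | h
    · obtain ⟨c, hc⟩ := hex [w, a, v, t a, s (t a), t e, s (t e)] (by simp)
      simp only [List.mem_cons, List.not_mem_nil, or_false, not_or] at hc
      obtain ⟨c1, c2, c3, c4, c5, c6, c7⟩ := hc
      refine ⟨c, ?_, ?_⟩
      · simp only [List.mem_cons, List.not_mem_nil, or_false, not_or]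
        exact ⟨c1, c2, c3, c4, by rw [h]; exact c3, c6⟩
      · simp only [List.mem_cons, List.not_mem_nil, or_false, not_or]
        refine ⟨fun h' => c2 ?_, fun h' => c1 ?_, fun h' => c3 ?_, fun h' => c5 ?_, fun h' => c3 ?_, fun h' => c7 ?_⟩
        · rw [← hss c, h', ha]
        · rw [← hss c, h', hsa]
        · rw [← hss c, h', hsv]
        · rw [← hss c, h']
        · rw [← hss c, h', h, hsv]
        · rw [← hss c, h']
    · obtain ⟨c, hc⟩ := hex [w, a, v, e, s e, t e, s (t e)] (by simp)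
      simp only [List.mem_cons, List.not_mem_nil, or_false, not_or] at hc
      obtain ⟨c1, c2, c3, c4, c5, c6, c7⟩ := hc
      refine ⟨c, ?_, ?_⟩
      · simp only [List.mem_cons, List.not_mem_nil, or_false, not_or]
        exact ⟨c1, c2, c3, by rw [h]; exact c3, c4, c6⟩
      · simp only [List.mem_cons, List.not_mem_nil, or_false, not_or]
        refine ⟨fun h' => c2 ?_, fun h' => c1 ?_, fun h' => c3 ?_, fun h' => c3 ?_, fun h' => c5 ?_, fun h' => c7 ?_⟩
        · rw [← hss c, h', ha]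
        · rw [← hss c, h', hsa]
        · rw [← hss c, h', hsv]
        · rw [← hss c, h', h, hsv]
        · rw [← hss c, h']
        · rw [← hss c, h']
  simp only [List.mem_cons, List.not_mem_nil, or_false, not_or] at hcl hcsl
  obtain ⟨k1, k2, k3, k4, k5, k6⟩ := hcl
  obtain ⟨l1, l2, l3, l4, l5, l6⟩ := hcsl
  have hcc : s c ≠ c := fun h => k3 (hsfix c h)
  have hp : Equiv.swap w a * Equiv.swap c (s c) ∈ M := hssw w c haw hcc
  have hq : Equiv.swap a (t a) * Equiv.swap e (t e) ∈ M := hsw a e hta htee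
  have h3c := isThreeCycle_of (w := w) (a := a) (b := t a) (c := c) (c' := s c) (e := e) (e' := t e) (by
    simp only [List.nodup_cons, List.mem_cons, List.not_mem_nil, or_false, not_or, List.nodup_nil,
      and_true, not_false_eq_true]
    refine ⟨⟨haw.symm, htaw.symm, Ne.symm k1, Ne.symm l1, hew.symm, htew.symm⟩,
      ⟨hta.symm, Ne.symm k2, Ne.symm l2, hea.symm, htea.symm⟩,
      ⟨Ne.symm k4, Ne.symm l4, heta.symm, hteta.symm⟩, ⟨hcc.symm, k5, k6⟩, ⟨l5, l6⟩, htee.symm⟩)
  exact alternatingGroup_le_of_isPreprimitive_of_isThreeCycle_mem hprim h3c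
    (mul_mem (mul_mem hp hq) (mul_mem hp hq))

/-! ### Invariant subsets -/

theorem exists_inv_finset {α : Type*} [Fintype α] [DecidableEq α] (P : Subgroup (Perm α))
    (hP : IsPGroup 2 P) (a : ℕ) (h : Odd ((Fintype.card α).choose a)) :
    ∃ s : Finset α, s.card = a ∧ ∀ g ∈ P, g • s = s := by
  let S : SubMulAction (Perm α) (Finset α) :=
    { carrier := {s | s.card = a}
      smul_mem' := fun g s hs => by
        change (g • s).card = a
        rw [Finset.card_smul_finset]; exact hs }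
  have hcard : Nat.card S = (Fintype.card α).choose a := by
    rw [← Fintype.card_finset_len, ← Nat.card_eq_fintype_card]
    rfl
  obtain ⟨x, hx⟩ := hP.nonempty_fixed_point_of_prime_not_dvd_card S (by
    rw [hcard, ← even_iff_two_dvd]; exact Nat.not_even_iff_odd.2 h)
  refine ⟨x.1, x.2, fun g hg => ?_⟩
  have := hx ⟨g, hg⟩
  exact congrArg Subtype.val this

theorem choose_two_pow_mod (j n : ℕ) : n.choose (2 ^ j) % 2 = (n / 2 ^ j) % 2 := by
  induction j generalizing n with
  | zero => simp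
  | succ j ih =>
    have : Fact (Nat.Prime 2) := ⟨Nat.prime_two⟩
    have h1 := Choose.choose_modEq_choose_mod_mul_choose_div_nat (p := 2) (n := n) (k := 2 ^ (j + 1))
    have h2 : 2 ^ (j + 1) % 2 = 0 := by rw [pow_succ]; omega
    have h3 : 2 ^ (j + 1) / 2 = 2 ^ j := by rw [pow_succ]; omega
    rw [h2, h3, Nat.choose_zero_right, one_mul] at h1
    rw [show n.choose (2 ^ (j + 1)) % 2 = (n / 2).choose (2 ^ j) % 2 from h1, ih (n / 2),
      Nat.div_div_eq_div_mul, pow_succ, mul_comm 2]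

theorem choose_odd {j n q : ℕ} (hn : n = 2 ^ j * q ∨ (n = 2 ^ j * q + 1 ∧ 1 ≤ j)) (hq : Odd q) :
    Odd (n.choose (2 ^ j)) := by
  rw [Nat.odd_iff, choose_two_pow_mod]
  rcases hn with rfl | ⟨rfl, hj⟩
  · rw [Nat.mul_div_cancel_left _ (by positivity)]
    exact Nat.odd_iff.1 hq
  · have h1 : 1 < 2 ^ j := Nat.one_lt_two_pow (by omega)
    have h2 : (2 ^ j * q + 1) / 2 ^ j = q := by
      rw [Nat.mul_add_div (by positivity), Nat.div_eq_of_lt h1, add_zero]
    rw [h2]
    exact Nat.odd_iff.1 hq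

/-! ### The case of a unique maximal overgroup -/

theorem no_index_three {α : Type*} [Fintype α] [DecidableEq α] (h5 : Nat.card α = 5)
    (K : Subgroup (alternatingGroup α)) : K.index ≠ 3 := by
  intro h3
  have hsimple : IsSimpleGroup (alternatingGroup α) := alternatingGroup.isSimpleGroup (by omega)
  have hK : K.normalCore = ⊥ := by
    rcases hsimple.eq_bot_or_eq_top_of_normal K.normalCore inferInstance with h | h
    · exact h
    · exfalso
      have h1 : K = ⊤ := top_le_iff.1 (h ▸ K.normalCore_le)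
      rw [h1, Subgroup.index_top] at h3
      omega
  rw [Subgroup.normalCore_eq_ker, MonoidHom.ker_eq_bot_iff] at hK
  have h1 := Subgroup.card_dvd_of_injective _ hK
  have : Nontrivial α := by
    rw [← Finite.one_lt_card_iff_nontrivial]; omega
  have h2 : Nat.card (alternatingGroup α) = 60 := by
    have h := two_mul_nat_card_alternatingGroup (α := α)
    rw [Nat.card_perm, h5] at h
    have : Nat.factorial 5 = 120 := rfl
    omega
  have h4 : Nat.card (Perm (alternatingGroup α ⧸ K)) = 6 := by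
    rw [Nat.card_perm]
    have : Nat.card (alternatingGroup α ⧸ K) = 3 := h3
    rw [this]; rfl
  rw [h2, h4] at h1
  omega

end Cfsg.Agent.H14.SylowMax
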