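import Mathlib
import Cfsg.Agent.H14_SylowMax

set_option autoImplicit false

/-!
Sylow 2-subgroups of symmetric/alternating groups in a unique maximal subgroup: main argument.
-/

namespace Cfsg.Agent.H14.SylowMax

open Equiv Equiv.Perm MulAction Cfsg.Agent.H14.SylowSym
open scoped Pointwise

theorem card_Pt (m r : ℕ) : Nat.card (Pt m r) = 2 * m + r := by
  simp [Pt, Nat.card_eq_fintype_card, Fintype.card_sum, mul_comm]

instance nontrivial_Pt {m r : ℕ} [NeZero m] : Nontrivial (Pt m r) :=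
  ⟨⟨Sum.inl (0, true), Sum.inl (0, false), by simp⟩⟩

theorem card_mul_relIndex {G : Type*} [Group G] {H K : Subgroup G} (h : H ≤ K) :
    Nat.card H * H.relIndex K = Nat.card K := by
  rw [← Subgroup.relIndex_bot_left, ← Subgroup.relIndex_bot_left]
  exact Subgroup.relIndex_mul_relIndex ⊥ H K bot_le h

/-! ### Part A -/

/-- two-transitive on 5 points of odd index -/
theorem alt_le_five {α : Type*} [Fintype α] [DecidableEq α] (h5 : Nat.card α = 5)
    (G' : Subgroup (Perm α)) (hA : alternatingGroup α ≤ G') (M : Subgroup G')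
    (hodd : Odd M.index) (h5M : 5 ∣ Nat.card M) : (alternatingGroup α).subgroupOf G' ≤ M := by
  have : Nontrivial α := by
    rw [← Finite.one_lt_card_iff_nontrivial]; omega
  have hcA : Nat.card (alternatingGroup α) = 60 := by
    have h := two_mul_nat_card_alternatingGroup (α := α)
    rw [Nat.card_perm, h5] at h
    have : Nat.factorial 5 = 120 := rfl
    omega
  set A' := (alternatingGroup α).subgroupOf G' with hA'
  set K : Subgroup (alternatingGroup α) := M.comap (Subgroup.inclusion hA) with hK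
  have hKi : K.index = M.relIndex A' := by
    rw [hK, Subgroup.index_comap, Subgroup.inclusion_range]
  have hcA' : Nat.card A' = 60 := by
    rw [← hcA]
    exact Nat.card_congr (Subgroup.subgroupOfEquivOfLe hA).toEquiv
  have ha : A'.index ∣ 2 := by
    have := Subgroup.relIndex_dvd_index_of_normal (alternatingGroup α) G'
    rwa [alternatingGroup.index_eq_two] at this
  have h1 := A'.card_mul_index
  have h2 := M.card_mul_index
  have h3 : Nat.card (A' ⊓ M : Subgroup G') * A'.relIndex M = Nat.card M := by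
    rw [← Subgroup.inf_relIndex_right]
    exact card_mul_relIndex inf_le_right
  have h4 : Nat.card (A' ⊓ M : Subgroup G') * M.relIndex A' = Nat.card A' := by
    rw [← Subgroup.inf_relIndex_left]
    exact card_mul_relIndex inf_le_left
  have h5' : A'.relIndex M ∣ A'.index := Subgroup.relIndex_dvd_index_of_normal _ _
  rw [← hKi] at h4
  rw [hcA'] at h1 h4
  rw [← h1] at h2
  rw [← h3] at h2 h5M
  have hK1 : K.index = 1 := by
    have hn3 : K.index ≠ 3 := no_index_three h5 K
    have hc5 : 5 ∣ Nat.card (A' ⊓ M : Subgroup G') := by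
      rcases (Nat.dvd_prime Nat.prime_two).1 (h5'.trans ha) with h | h
      · rwa [h, mul_one] at h5M
      · rw [h] at h5M
        exact (Nat.Coprime.dvd_mul_right (by norm_num)).1 h5M
    obtain ⟨c, hc⟩ := hc5
    have hc4 : 4 ∣ c := by
      rw [hc] at h2
      obtain ⟨t, ht⟩ := hodd
      obtain ⟨s, hs⟩ := h5'
      have hs0 : 0 < A'.relIndex M := by
        rcases Nat.eq_zero_or_pos (A'.relIndex M) with h0 | h0
        · rw [h0, zero_mul] at hs
          rw [hs] at ha; omega
        · exact h0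
      rw [hs] at h2
      have h6 : A'.relIndex M * (5 * (c * M.index)) = A'.relIndex M * (5 * (12 * s)) := by
        calc _ = 5 * c * A'.relIndex M * M.index := by ring
          _ = _ := by rw [h2]; ring
      have h7 := Nat.eq_of_mul_eq_mul_left hs0 h6
      have h8 : c * M.index = 12 * s := by omega
      have h9 : 4 ∣ c * M.index := by rw [h8]; exact ⟨3 * s, by ring⟩
      have h10 : Nat.Coprime 4 M.index := by
        have : Nat.Coprime (2 ^ 2) M.index := Nat.Coprime.pow_left 2 ((Nat.coprime_two_left).2 ⟨t, ht⟩)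
        simpa using this
      exact h10.dvd_of_dvd_mul_right h9
    obtain ⟨d, rfl⟩ := hc4
    rw [hc] at h4
    have h11 : d * K.index = 3 := by
      have : 20 * (d * K.index) = 60 := by rw [← h4]; ring
      omega
    have h12 : K.index ∣ 3 := ⟨d, by rw [← h11, mul_comm]⟩
    rcases (Nat.dvd_prime Nat.prime_three).1 h12 with h | h
    · exact h
    · exact absurd h hn3
  have hKtop : K = ⊤ := Subgroup.index_eq_one.1 hK1
  intro x hx
  have : (⟨(x : Perm α), hx⟩ : alternatingGroup α) ∈ K := by rw [hKtop]; trivial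
  exact this

theorem five_dvd {α : Type*} [Fintype α] [DecidableEq α] (h5 : Nat.card α = 5)
    (M : Subgroup (Perm α)) [IsPretransitive M α] : 5 ∣ Nat.card M := by
  have : Nonempty α := by
    rw [← Finite.card_pos_iff]; omega
  obtain ⟨a⟩ := this
  have h1 := MulAction.index_stabilizer_of_transitive M a
  rw [h5] at h1
  rw [← h1]
  exact Subgroup.index_dvd_card _

theorem exists_sign_one_moves {α : Type*} [Fintype α] [DecidableEq α] (h : 3 ≤ Nat.card α) (w : α) :
    ∃ g : Perm α, Equiv.Perm.sign g = 1 ∧ g w ≠ w := by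
  rw [Nat.card_eq_fintype_card] at h
  obtain ⟨a, b, hab, hwa, hwb⟩ : ∃ a b : α, a ≠ b ∧ w ≠ a ∧ w ≠ b := by
    have h1 : 1 < (Finset.univ.erase w).card := by
      rw [Finset.card_erase_of_mem (Finset.mem_univ _), Finset.card_univ]; omega
    obtain ⟨a, ha, b, hb, hab⟩ := Finset.one_lt_card.1 h1
    exact ⟨a, b, hab, (Finset.ne_of_mem_erase ha).symm, (Finset.ne_of_mem_erase hb).symm⟩
  refine ⟨Equiv.swap w a * Equiv.swap w b, ?_, ?_⟩
  · rw [map_mul, Equiv.Perm.sign_swap hwa, Equiv.Perm.sign_swap hwb]; rfl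
  · rw [Perm.mul_apply, Equiv.swap_apply_left, Equiv.swap_apply_of_ne_of_ne hwb.symm hab.symm]
    exact hwb.symm

theorem partA {m : ℕ} (hm : 2 ≤ m) (hST : ST m) (G' : Subgroup (Perm (Pt m 1)))
    (hA : alternatingGroup (Pt m 1) ≤ G') (hm4 : m = 2 ∨ 4 ≤ m)
    (R : Sylow 2 G') (hR : (R : Subgroup G') ≤ (W m 1).subgroupOf G') : UM (R : Subgroup G') := by
  have : NeZero m := ⟨by omega⟩
  set S : Subgroup G' := stabilizer G' (Sum.inr 0 : Pt m 1) with hS
  have hfixR : ∀ g ∈ (R : Subgroup G'), (g : Perm (Pt m 1)) (Sum.inr 0) = Sum.inr 0 := by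
    intro g hg
    have h1 := mem_W.1 (hR hg) (Sum.inr 0)
    rw [tau_inr] at h1
    exact (fix_iff _).1 h1.symm
  have hRS : (R : Subgroup G') ≤ S := fun g hg => hfixR g hg
  have key : ∀ M : Subgroup G', (R : Subgroup G') ≤ M → M ≠ ⊤ → M ≤ S := by
    intro M hRM hM
    by_contra hcon
    obtain ⟨g0, hg0, hg0'⟩ := SetLike.not_le_iff_exists.1 hcon
    have hne : (g0 : Perm (Pt m 1)) (Sum.inr 0) ≠ Sum.inr 0 := hg0'
    apply hM
    have htr : ∀ x y : Pt m 1, x ≠ Sum.inr 0 → y ≠ Sum.inr 0 →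
        ∃ g ∈ M.map G'.subtype, g (Sum.inr 0) = Sum.inr 0 ∧ g x = y := by
      intro x y hx hy
      obtain ⟨g, hg, hxy⟩ := trans_of_ST hm hST G' hA R hR x y (fun h => hx ((fix_iff x).1 h))
        (fun h => hy ((fix_iff y).1 h))
      obtain ⟨g', hg', rfl⟩ := hg
      exact ⟨_, ⟨g', hRM hg', rfl⟩, hfixR g' hg', hxy⟩
    apply eq_top_of_alt_le G' R M hRM
    rcases hm4 with h2 | h4
    · have h5 : Nat.card (Pt m 1) = 5 := by rw [card_Pt, h2]
      have h2t := two_trans (M.map G'.subtype) (Sum.inr 0) htr ⟨g0, hg0, rfl⟩ hne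
      have : IsPretransitive (M.map G'.subtype) (Pt m 1) :=
        (isPreprimitive_of_is_two_pretransitive h2t).toIsPretransitive
      have h5M := five_dvd h5 (M.map G'.subtype)
      have h5M' : Nat.card (M.map G'.subtype) = Nat.card M := by
        exact (Nat.card_congr (Subgroup.equivMapOfInjective M G'.subtype G'.subtype_injective).toEquiv).symm
      rw [h5M'] at h5M
      refine alt_le_five h5 G' hA M ?_ h5M
      rw [← Nat.not_even_iff_odd, even_iff_two_dvd]
      exact fun h => R.not_dvd_index (h.trans (Subgroup.index_dvd_of_le hRM))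
    · have h1 : alternatingGroup (Pt m 1) ≤ M.map G'.subtype := by
        refine alt_le_of_moves h4 _ ?_ htr ⟨g0, hg0, rfl⟩ hne
        intro x y hx hy
        obtain ⟨g', hg', hgg⟩ := swap2_mem G' hA R hR x y hx hy
        rw [← hgg]
        exact ⟨g', hRM hg', rfl⟩
      intro x hx
      obtain ⟨y, hy, hyx⟩ := h1 hx
      have : y = x := Subtype.ext hyx
      rwa [← this]
  have hStop : S ≠ ⊤ := by
    intro h
    obtain ⟨g, hg, hgw⟩ := exists_sign_one_moves (α := Pt m 1) (by rw [card_Pt]; omega) (Sum.inr 0)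
    have h1 : (⟨g, hA hg⟩ : G') ∈ S := by rw [h]; trivial
    exact hgw h1
  have hScoatom : IsCoatom S := by
    refine ⟨hStop, fun M hSM => ?_⟩
    by_contra hM
    exact absurd (key M (hRS.trans hSM.le) hM) (not_le_of_gt hSM)
  refine ⟨S, ⟨hScoatom, hRS⟩, ?_⟩
  rintro M ⟨hMc, hRM⟩
  have h1 := key M hRM hMc.1
  by_contra hne
  exact hStop (hMc.2 S (lt_of_le_of_ne h1 hne))

/-! ### Part B -/

/-- the hypotheses drawn from a unique maximal overgroup -/
structure Hyp {α : Type*} [Fintype α] [DecidableEq α] (RR MM : Subgroup (Perm α)) : Prop where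
  le : RR ≤ MM
  not_le : ¬ alternatingGroup α ≤ MM
  key : ∀ H : Subgroup (Perm α), RR ≤ H → ¬ alternatingGroup α ≤ H → H ⊓ alternatingGroup α ≤ MM

theorem hyp_of_UM {α : Type*} [Fintype α] [DecidableEq α] [Nontrivial α] (G' : Subgroup (Perm α))
    (hA : alternatingGroup α ≤ G') (R : Sylow 2 G') (h : UM (R : Subgroup G')) :
    ∃ MM : Subgroup (Perm α), Hyp ((R : Subgroup G').map G'.subtype) MM := by
  obtain ⟨M, ⟨hMc, hRM⟩, huniq⟩ := h
  refine ⟨M.map G'.subtype, Subgroup.map_mono hRM, ?_, ?_⟩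
  · intro hcon
    apply hMc.1
    apply eq_top_of_alt_le G' R M hRM
    intro x hx
    obtain ⟨y, hy, hyx⟩ := hcon hx
    have : y = x := Subtype.ext hyx
    rwa [← this]
  · intro H hRH hAH
    have hne : H.subgroupOf G' ≠ ⊤ := by
      intro htop
      apply hAH
      intro x hx
      have : (⟨x, hA hx⟩ : G') ∈ H.subgroupOf G' := by rw [htop]; trivial
      exact this
    obtain ⟨N, hN, hHN⟩ := (eq_top_or_exists_le_coatom (H.subgroupOf G')).resolve_left hne
    have hRN : (R : Subgroup G') ≤ N := by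
      refine le_trans ?_ hHN
      intro x hx
      exact hRH ⟨x, hx, rfl⟩
    have hNM : N = M := huniq N ⟨hN, hRN⟩
    rintro x ⟨hx, hxA⟩
    refine ⟨⟨x, hA hxA⟩, ?_, rfl⟩
    rw [← hNM]
    exact hHN hx

theorem eq_stab {α : Type*} [Fintype α] [DecidableEq α] {RR MM : Subgroup (Perm α)} (hyp : Hyp RR MM)
    (s : Set α) (h0 : s.Nonempty) (h1 : sᶜ.Nonempty) (hs : Nat.card α ≠ 2 * s.ncard)
    (hinv : ∀ g ∈ RR, g • s = s) : MM.subgroupOf (alternatingGroup α) = stabilizer (alternatingGroup α) s := by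
  have hco := alternatingGroup.isCoatom_stabilizer h0 h1 hs
  have hle : stabilizer (alternatingGroup α) s ≤ MM.subgroupOf (alternatingGroup α) := by
    intro x hx
    apply hyp.key (stabilizer (Perm α) s) hinv _ ⟨hx, x.2⟩
    intro hcon
    apply hco.1
    rw [eq_top_iff]
    intro y _
    exact hcon y.2
  by_contra hne
  have h2 := hco.2 _ (lt_of_le_of_ne hle (fun h => hne h.symm))
  apply hyp.not_le
  intro x hx
  have : (⟨x, hx⟩ : alternatingGroup α) ∈ MM.subgroupOf (alternatingGroup α) := by rw [h2]; trivial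
  exact this

theorem not_alt_le_W {m r : ℕ} (hm : 2 ≤ m) : ¬ alternatingGroup (Pt m r) ≤ W m r := by
  intro hcon
  set x : Pt m r := Sum.inl (⟨0, by omega⟩, true) with hx
  set y : Pt m r := Sum.inl (⟨1, by omega⟩, true) with hy
  have hxy : x ≠ y := by
    rw [hx, hy]
    intro h
    have := (Prod.mk.inj (Sum.inl_injective h)).1
    simp at this
  have htx : tau m r x ≠ x := tau_ne m r _ _
  have htxy : tau m r x ≠ y := by
    rw [hx, hy, tau_inl]
    intro h
    have := (Prod.mk.inj (Sum.inl_injective h)).1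
    simp at this
  have hmem : Equiv.swap x (tau m r x) * Equiv.swap x y ∈ alternatingGroup (Pt m r) := by
    rw [Equiv.Perm.mem_alternatingGroup, map_mul, Equiv.Perm.sign_swap htx.symm, Equiv.Perm.sign_swap hxy]
    rfl
  have h1 := mem_W.1 (hcon hmem) x
  rw [Perm.mul_apply, Perm.mul_apply, Equiv.swap_apply_left, Equiv.swap_apply_of_ne_of_ne htx htxy,
    Equiv.swap_apply_right, Equiv.swap_apply_of_ne_of_ne hxy.symm (fun h => htxy h.symm)] at h1
  have h2 := congrArg (tau m r) h1
  rw [tau_tau] at h2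
  exact htxy h2

theorem WA_trans {m r : ℕ} (hm : 2 ≤ m) (x y : Pt m r) (hx : tau m r x ≠ x) (hy : tau m r y ≠ y) :
    ∃ g ∈ W m r ⊓ alternatingGroup (Pt m r), g x = y := by
  refine trans_step inf_le_left ?_ ?_ x y hx hy
  · intro z
    by_cases hz : tau m r z = z
    · exact ⟨1, one_mem _, hz.symm⟩
    obtain ⟨i, b, rfl⟩ := exists_inl_of_tau_ne hz
    obtain ⟨j, hj⟩ : ∃ j : Fin m, j ≠ i := by
      have := i.2
      by_cases h0 : i.val = 0
      · exact ⟨⟨1, by omega⟩, by simp [Fin.ext_iff, h0]⟩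
      · exact ⟨⟨0, by omega⟩, by rw [Ne, Fin.ext_iff]; exact fun h => h0 h.symm⟩
    have hne1 : (Sum.inl (i, b) : Pt m r) ≠ Sum.inl (j, true) := by
      intro h; exact hj (Prod.mk.inj (Sum.inl_injective h)).1.symm
    have hne2 : (Sum.inl (i, b) : Pt m r) ≠ tau m r (Sum.inl (j, true)) := by
      rw [tau_inl]
      intro h; exact hj (Prod.mk.inj (Sum.inl_injective h)).1.symm
    refine ⟨Equiv.swap (Sum.inl (i, b)) (tau m r (Sum.inl (i, b))) *
      Equiv.swap (Sum.inl (j, true)) (tau m r (Sum.inl (j, true))), Subgroup.mem_inf.2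
        ⟨mul_mem (Bgp_le_W (swap_mem_Bgp m r _)) (Bgp_le_W (swap_mem_Bgp m r _)), ?_⟩, ?_⟩
    · rw [Equiv.Perm.mem_alternatingGroup, map_mul, Equiv.Perm.sign_swap (tau_ne m r _ _).symm,
        Equiv.Perm.sign_swap (tau_ne m r _ _).symm]
      rfl
    · rw [Perm.mul_apply, Equiv.swap_apply_of_ne_of_ne hne1 hne2, Equiv.swap_apply_left]
  · intro i j
    exact ⟨lift m r (Equiv.swap i j), ⟨lift_mem m r _, sign_lift m r _⟩, by
      rw [act_lift, Equiv.swap_apply_left]⟩

/-- B1: even degree, not a power of two -/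
theorem partB1 {m : ℕ} (hm : 2 ≤ m) {j q : ℕ} (hq : Odd q) (hq3 : 3 ≤ q) (hmj : 2 * m = 2 ^ j * q)
    {RR MM : Subgroup (Perm (Pt m 0))} (hR2 : IsPGroup 2 RR) (hRW : RR ≤ W m 0) (hyp : Hyp RR MM) : False := by
  have hcard : Fintype.card (Pt m 0) = 2 * m := by
    rw [← Nat.card_eq_fintype_card, card_Pt]; rfl
  obtain ⟨s, hs, hinv⟩ := exists_inv_finset RR hR2 (2 ^ j) (by
    rw [hcard]; exact choose_odd (Or.inl hmj) hq)
  have hpos : 0 < 2 ^ j := by positivity
  have hlt : 2 ^ j < 2 * m := by rw [hmj]; nlinarith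
  have h0 : (s : Set (Pt m 0)).Nonempty := by
    rw [Finset.coe_nonempty, ← Finset.card_pos, hs]; exact hpos
  obtain ⟨y, hy⟩ : ∃ y, y ∉ s := by
    by_contra hcon
    push Not at hcon
    have : s = Finset.univ := Finset.eq_univ_iff_forall.2 hcon
    rw [this, Finset.card_univ, hcard] at hs
    omega
  obtain ⟨x, hx⟩ := h0
  have h2 := eq_stab hyp (s : Set (Pt m 0)) ⟨x, hx⟩ ⟨y, hy⟩ (by
    rw [Set.ncard_coe_finset, hs, card_Pt, hmj]
    intro h
    have : 2 ^ j * q = 2 ^ j * 2 := by rw [← add_zero (2 ^ j * q), h]; ring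
    have := Nat.eq_of_mul_eq_mul_left hpos this
    omega) (fun g hg => by
      rw [← Finset.coe_smul_finset, hinv g hg])
  have hne : ∀ z : Pt m 0, tau m 0 z ≠ z := by
    rintro (⟨i, b⟩ | i)
    · exact tau_ne m 0 i b
    · exact i.elim0
  obtain ⟨g, hg, hgx⟩ := WA_trans hm x y (hne x) (hne y)
  have hgM : g ∈ MM := hyp.key (W m 0) hRW (not_alt_le_W hm) hg
  have hgS : (⟨g, hg.2⟩ : alternatingGroup (Pt m 0)) ∈ stabilizer (alternatingGroup (Pt m 0)) (s : Set (Pt m 0)) := by
    rw [← h2]; exact hgM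
  rw [mem_stabilizer_iff] at hgS
  have h3 : (⟨g, hg.2⟩ : alternatingGroup (Pt m 0)) • x ∈ (s : Set (Pt m 0)) := by
    rw [← hgS]
    exact Set.smul_mem_smul_set hx
  have h4 : (⟨g, hg.2⟩ : alternatingGroup (Pt m 0)) • x = y := hgx
  rw [h4] at h3
  exact hy h3

/-- B2: odd degree, not one more than a power of two -/
theorem partB2 {m : ℕ} (hm : 2 ≤ m) {j q : ℕ} (hq : Odd q) (hq3 : 3 ≤ q) (hmj : 2 * m = 2 ^ j * q)
    (hj : 1 ≤ j)
    {RR MM : Subgroup (Perm (Pt m 1))} (hR2 : IsPGroup 2 RR) (hRW : RR ≤ W m 1) (hyp : Hyp RR MM) : False := by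
  have hcard : Fintype.card (Pt m 1) = 2 * m + 1 := by
    rw [← Nat.card_eq_fintype_card, card_Pt]
  obtain ⟨s, hs, hinv⟩ := exists_inv_finset RR hR2 (2 ^ j) (by
    rw [hcard]; exact choose_odd (Or.inr ⟨by omega, hj⟩) hq)
  have h1 : 1 < 2 ^ j := Nat.one_lt_two_pow (by omega)
  have hlt : 3 * 2 ^ j ≤ 2 * m := by rw [hmj]; nlinarith
  have h0 : (s : Set (Pt m 1)).Nonempty := by
    rw [Finset.coe_nonempty, ← Finset.card_pos, hs]; omega
  have hsc : 1 < (sᶜ : Finset (Pt m 1)).card := by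
    rw [Finset.card_compl, hs, hcard]; omega
  have hsc0 : ((s : Set (Pt m 1))ᶜ).Nonempty := by
    rw [← Finset.coe_compl, Finset.coe_nonempty, ← Finset.card_pos]; omega
  have h2 := eq_stab hyp (s : Set (Pt m 1)) h0 hsc0 (by
    rw [Set.ncard_coe_finset, hs, card_Pt]
    omega) (fun g hg => by
      rw [← Finset.coe_smul_finset, hinv g hg])
  have hfix : ∀ g ∈ RR, g (Sum.inr 0) = Sum.inr 0 := by
    intro g hg
    have h1 := mem_W.1 (hRW hg) (Sum.inr 0)
    rw [tau_inr] at h1
    exact (fix_iff _).1 h1.symm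
  have h3 := eq_stab hyp ({Sum.inr 0} : Set (Pt m 1)) ⟨_, rfl⟩
    ⟨Sum.inl (⟨0, by omega⟩, true), by simp⟩ (by
      rw [Set.ncard_singleton, card_Pt]; omega) (fun g hg => by
      rw [Set.smul_set_singleton]
      exact congrArg _ (hfix g hg))
  -- move the fixed point inside `s` or its complement
  have h4 : 4 ≤ Nat.card (Pt m 1) := by rw [card_Pt]; omega
  have hmove : ∀ u : Finset (Pt m 1), 1 < u.card → (Sum.inr 0 : Pt m 1) ∈ u →
      ∃ g ∈ stabilizer (alternatingGroup (Pt m 1)) (u : Set (Pt m 1)), g • (Sum.inr 0 : Pt m 1) ≠ Sum.inr 0 := by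
    intro u hu hmem
    obtain ⟨b, hb, hbne⟩ := Finset.exists_mem_ne hu (Sum.inr 0 : Pt m 1)
    obtain ⟨g, hg, hgb⟩ := alternatingGroup.exists_mem_stabilizer_smul_eq h4 (t := (u : Set (Pt m 1)))
      (Sum.inr 0) hmem b hb
    exact ⟨g, hg, by rw [hgb]; exact hbne⟩
  have hfin : ∀ g ∈ stabilizer (alternatingGroup (Pt m 1)) (s : Set (Pt m 1)), g • (Sum.inr 0 : Pt m 1) = Sum.inr 0 := by
    intro g hg
    rw [← h2, h3, mem_stabilizer_iff, Set.smul_set_singleton] at hg
    exact Set.singleton_injective hg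
  by_cases hmem : (Sum.inr 0 : Pt m 1) ∈ s
  · obtain ⟨g, hg, hne⟩ := hmove s (by omega) hmem
    exact hne (hfin g hg)
  · obtain ⟨g, hg, hne⟩ := hmove sᶜ hsc (Finset.mem_compl.2 hmem)
    rw [Finset.coe_compl, stabilizer_compl] at hg
    exact hne (hfin g hg)

/-! B3: degree a power of two -/

/-- projection to the pair -/
def pr {m : ℕ} (x : Pt m 0) : Fin m :=
  match x with
  | Sum.inl (i, _) => i
  | Sum.inr i => i.elim0

@[simp] theorem pr_inl {m : ℕ} (i : Fin m) (b : Bool) : pr (Sum.inl (i, b) : Pt m 0) = i := rfl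

theorem pr_act {m : ℕ} {g : Perm (Pt m 0)} (hg : g ∈ W m 0) (x : Pt m 0) : pr (g x) = act g (pr x) := by
  rcases x with ⟨i, b⟩ | i
  · obtain ⟨b', hb'⟩ := act_spec hg i b
    rw [hb', pr_inl, pr_inl]
  · exact i.elim0

theorem pr_tau {m : ℕ} (x : Pt m 0) : pr (tau m 0 x) = pr x := by
  rcases x with ⟨i, b⟩ | i
  · rfl
  · exact i.elim0

theorem eq_of_pr {m : ℕ} {x y : Pt m 0} (h : pr x = pr y) : x = y ∨ x = tau m 0 y := by
  rcases x with ⟨i, b⟩ | i
  · rcases y with ⟨j, c⟩ | j
    · rw [pr_inl, pr_inl] at h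
      subst h
      rw [tau_inl]
      rcases Bool.eq_or_eq_not b c with h | h
      · left; rw [h]
      · right; rw [h]
    · exact j.elim0
  · exact i.elim0

/-- the relation whose classes are the 4-sets -/
def rel {m : ℕ} (σ : Perm (Fin m)) (x y : Pt m 0) : Prop := pr y = pr x ∨ pr y = σ (pr x)

/-- its stabilizer -/
def Egp {m : ℕ} (σ : Perm (Fin m)) : Subgroup (Perm (Pt m 0)) where
  carrier := {g | ∀ x y, rel σ x y ↔ rel σ (g x) (g y)}
  one_mem' := fun x y => Iff.rfl
  mul_mem' {g h} hg hh x y := by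
    rw [hh x y, hg (h x) (h y)]; rfl
  inv_mem' {g} hg x y := by
    have := hg (g⁻¹ x) (g⁻¹ y)
    rw [perm_apply_inv, perm_apply_inv] at this
    exact this.symm

theorem mem_Egp {m : ℕ} {σ : Perm (Fin m)} {g : Perm (Pt m 0)} :
    g ∈ Egp σ ↔ ∀ x y, rel σ x y ↔ rel σ (g x) (g y) := Iff.rfl

theorem W_mem_Egp {m : ℕ} {σ : Perm (Fin m)} {g : Perm (Pt m 0)} (hg : g ∈ W m 0)
    (hc : ∀ i, act g (σ i) = σ (act g i)) : g ∈ Egp σ := by
  intro x y
  have hinj : Function.Injective (act g : Fin m → Fin m) := (phi m 0 ⟨g, hg⟩).injective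
  unfold rel
  rw [pr_act hg, pr_act hg, ← hc, hinj.eq_iff, hinj.eq_iff]

/-- a fixed point free involution of `Fin (2m')` commuting with a 2-group -/
theorem exists_sigma {m m' : ℕ} (hm : m = 2 * m') (P : Subgroup (Perm (Fin m))) (hP : IsPGroup 2 P) :
    ∃ σ : Perm (Fin m), (∀ i, σ i ≠ i) ∧ (∀ i, σ (σ i) = i) ∧ ∀ g ∈ P, ∀ i, g (σ i) = σ (g i) := by
  obtain ⟨e⟩ : Nonempty (Fin m ≃ Pt m' 0) := by
    apply Fintype.card_eq.1
    simp only [Pt, Fintype.card_sum, Fintype.card_prod, Fintype.card_fin, Fintype.card_bool]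
    omega
  obtain ⟨g, hg⟩ := exists_conj_le (p := 2) (P.map e.permCongrHom.toMonoidHom) (W m' 0) (hP.map _) (by
    rw [← even_iff_two_dvd]; exact Nat.not_even_iff_odd.2 (index_W m' 0 (by omega)))
  set u : Pt m' 0 ≃ Fin m := (g : Perm (Pt m' 0)).trans e.symm with hu
  refine ⟨u.permCongr (tau m' 0), ?_, ?_, ?_⟩
  · intro i h
    rw [Equiv.permCongr_apply] at h
    have h1 : tau m' 0 (u.symm i) = u.symm i := by
      apply u.injective
      rw [h, Equiv.apply_symm_apply]
    rcases hx : u.symm i with ⟨j, b⟩ | j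
    · rw [hx] at h1
      exact tau_ne m' 0 j b h1
    · exact j.elim0
  · intro i
    rw [Equiv.permCongr_apply, Equiv.permCongr_apply, Equiv.symm_apply_apply, tau_tau, Equiv.apply_symm_apply]
  · intro x hx i
    have h1 := mem_W.1 (hg (e.permCongrHom x) ⟨x, hx, rfl⟩) (u.symm i)
    rw [Equiv.permCongr_apply, Equiv.permCongr_apply]
    have h2 : ∀ z : Pt m' 0, (g⁻¹ * e.permCongrHom x * g) z = u.symm (x (u z)) := fun z => rfl
    rw [h2, h2, Equiv.apply_symm_apply] at h1
    rw [← h1, Equiv.apply_symm_apply]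

theorem partB3 {m m' : ℕ} (hm : m = 2 * m') (hm' : 2 ≤ m')
    {RR MM : Subgroup (Perm (Pt m 0))} (hR2 : IsPGroup 2 RR) (hRW : RR ≤ W m 0) (hyp : Hyp RR MM) : False := by
  have : NeZero m := ⟨by omega⟩
  obtain ⟨σ, hσ1, hσ2, hσ3⟩ := exists_sigma hm ((RR.subgroupOf (W m 0)).map (phi m 0))
    (by
      apply IsPGroup.map
      exact hR2.comap_of_injective (W m 0).subtype (W m 0).subtype_injective)
  have hRE : RR ≤ Egp σ := by
    intro g hg
    apply W_mem_Egp (hRW hg)
    intro i
    exact hσ3 _ ⟨⟨g, hRW hg⟩, hg, rfl⟩ i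
  have hne : ∀ z : Pt m 0, tau m 0 z ≠ z := by
    rintro (⟨i, b⟩ | i)
    · exact tau_ne m 0 i b
    · exact i.elim0
  -- the base point
  set i0 : Fin m := 0 with hi0
  set x0 : Pt m 0 := Sum.inl (i0, true) with hx0
  set y0 : Pt m 0 := Sum.inl (σ i0, true) with hy0
  have hpx0 : pr x0 = i0 := rfl
  have hpy0 : pr y0 = σ i0 := rfl
  -- third point
  obtain ⟨i1, hi1, hi1'⟩ : ∃ i1 : Fin m, i1 ≠ i0 ∧ i1 ≠ σ i0 := by
    by_contra hcon
    push Not at hcon
    have h1 : (Finset.univ : Finset (Fin m)) ⊆ {i0, σ i0} := by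
      intro z _
      rw [Finset.mem_insert, Finset.mem_singleton]
      by_cases h : z = i0
      · exact Or.inl h
      · exact Or.inr (hcon z h)
    have h2 := (Finset.card_le_card h1).trans Finset.card_le_two
    rw [Finset.card_univ, Fintype.card_fin] at h2
    omega
  have hprne : ∀ {x y : Pt m 0}, pr x ≠ pr y → x ≠ y := fun h h' => h (by rw [h'])
  have hnotE : ¬ alternatingGroup (Pt m 0) ≤ Egp σ := by
    intro hcon
    set z : Pt m 0 := Sum.inl (i1, true) with hz
    have hxz : x0 ≠ z := hprne (fun h => hi1 h.symm)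
    have htxz : tau m 0 x0 ≠ z := hprne (by rw [pr_tau]; exact fun h => hi1 h.symm)
    have hmem : Equiv.swap x0 (tau m 0 x0) * Equiv.swap x0 z ∈ alternatingGroup (Pt m 0) := by
      rw [Equiv.Perm.mem_alternatingGroup, map_mul, Equiv.Perm.sign_swap (hne x0).symm, Equiv.Perm.sign_swap hxz]
      rfl
    have h1 := (mem_Egp.1 (hcon hmem) x0 (tau m 0 x0)).1 (Or.inl (pr_tau _))
    rw [Perm.mul_apply, Perm.mul_apply, Equiv.swap_apply_left, Equiv.swap_apply_of_ne_of_ne hxz.symm htxz.symm,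
      Equiv.swap_apply_of_ne_of_ne (hne x0) htxz, Equiv.swap_apply_right] at h1
    rcases h1 with h1 | h1
    · exact hi1 h1.symm
    · have h2 : i0 = σ i1 := h1
      apply hi1'
      rw [h2, hσ2]
  have hWM : W m 0 ⊓ alternatingGroup (Pt m 0) ≤ MM := hyp.key (W m 0) hRW (not_alt_le_W (by omega))
  have hEM : Egp σ ⊓ alternatingGroup (Pt m 0) ≤ MM := hyp.key (Egp σ) hRE hnotE
  -- the 3-cycle
  have d1 : tau m 0 x0 ≠ y0 := hprne (by rw [pr_tau]; exact (hσ1 i0).symm)
  have d2 : tau m 0 x0 ≠ tau m 0 y0 := hprne (by rw [pr_tau, pr_tau]; exact (hσ1 i0).symm)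
  have d3 : y0 ≠ tau m 0 y0 := (hne y0).symm
  have d4 : x0 ≠ y0 := hprne (hσ1 i0).symm
  have d5 : x0 ≠ tau m 0 y0 := hprne (by rw [pr_tau]; exact (hσ1 i0).symm)
  set c : Perm (Pt m 0) := Equiv.swap (tau m 0 x0) y0 * Equiv.swap (tau m 0 x0) (tau m 0 y0) with hc
  have hc3 : IsThreeCycle c := Equiv.Perm.isThreeCycle_swap_mul_swap_same d1 d2 d3
  have hcx0 : c x0 = x0 := by
    rw [hc, Perm.mul_apply, Equiv.swap_apply_of_ne_of_ne (hne x0).symm d5,
      Equiv.swap_apply_of_ne_of_ne (hne x0).symm d4]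
  have hcx1 : c (tau m 0 x0) = tau m 0 y0 := by
    rw [hc, Perm.mul_apply, Equiv.swap_apply_left, Equiv.swap_apply_of_ne_of_ne d2.symm d3.symm]
  have hcy1 : c (tau m 0 y0) = y0 := by
    rw [hc, Perm.mul_apply, Equiv.swap_apply_right, Equiv.swap_apply_left]
  have hcy0 : c y0 = tau m 0 x0 := by
    rw [hc, Perm.mul_apply, Equiv.swap_apply_of_ne_of_ne d1.symm d3, Equiv.swap_apply_right]
  have hcfix : ∀ z, pr z ≠ i0 → pr z ≠ σ i0 → c z = z := by
    intro z h1 h2
    have e1 : z ≠ tau m 0 x0 := hprne (by rw [pr_tau]; exact h1)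
    have e2 : z ≠ tau m 0 y0 := hprne (by rw [pr_tau]; exact h2)
    have e3 : z ≠ y0 := hprne h2
    rw [hc, Perm.mul_apply, Equiv.swap_apply_of_ne_of_ne e1 e2, Equiv.swap_apply_of_ne_of_ne e1 e3]
  -- which points lie in the class of x0
  have hcls : ∀ z, (pr z = i0 ∨ pr z = σ i0) → (pr (c z) = i0 ∨ pr (c z) = σ i0) := by
    rintro z (h | h)
    · rcases eq_of_pr (h.trans hpx0.symm) with h' | h'
      · rw [h', hcx0]; exact Or.inl rfl
      · rw [h', hcx1, pr_tau]; exact Or.inr rfl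
    · rcases eq_of_pr (h.trans hpy0.symm) with h' | h'
      · rw [h', hcy0, pr_tau]; exact Or.inl rfl
      · rw [h', hcy1]; exact Or.inr rfl
  have hrel_in : ∀ x y : Pt m 0, (pr x = i0 ∨ pr x = σ i0) → (rel σ x y ↔ (pr y = i0 ∨ pr y = σ i0)) := by
    rintro x y (h | h)
    · unfold rel; rw [h]
    · unfold rel; rw [h, hσ2]; exact or_comm
  have hcE : c ∈ Egp σ := by
    intro x y
    by_cases hx : pr x = i0 ∨ pr x = σ i0
    · rw [hrel_in x y hx, hrel_in (c x) (c y) (hcls x hx)]
      constructor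
      · exact hcls y
      · intro h
        by_contra hcon
        push Not at hcon
        rw [hcfix y hcon.1 hcon.2] at h
        rcases h with h | h
        · exact hcon.1 h
        · exact hcon.2 h
    · by_cases hy : pr y = i0 ∨ pr y = σ i0
      · have hx' : ¬ (pr (c x) = i0 ∨ pr (c x) = σ i0) := by
          push Not at hx
          rw [hcfix x hx.1 hx.2]
          push Not
          exact hx
        have hsymm : ∀ x y : Pt m 0, rel σ x y ↔ rel σ y x := by
          intro x y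
          unfold rel
          constructor
          · rintro (h | h)
            · exact Or.inl h.symm
            · right; rw [h, hσ2]
          · rintro (h | h)
            · exact Or.inl h.symm
            · right; rw [h, hσ2]
        rw [hsymm x y, hsymm (c x) (c y), hrel_in y x hy, hrel_in (c y) (c x) (hcls y hy)]
        exact ⟨fun h => absurd h hx, fun h => absurd h hx'⟩
      · push Not at hx hy
        rw [hcfix x hx.1 hx.2, hcfix y hy.1 hy.2]
  have hcM : c ∈ MM := hEM ⟨hcE, hc3.sign⟩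
  -- transitivity
  have htrans : IsPretransitive MM (Pt m 0) := ⟨fun x y => by
    obtain ⟨g, hg, hgx⟩ := WA_trans (r := 0) (by omega) x y (hne x) (hne y)
    exact ⟨⟨g, hWM hg⟩, hgx⟩⟩
  have hprim : IsPreprimitive MM (Pt m 0) := by
    apply IsPreprimitive.of_isTrivialBlock_base x0
    intro B hxB hB
    rw [IsTrivialBlock, or_iff_not_imp_left]
    intro hnt
    rw [Set.not_subsingleton_iff] at hnt
    have hstab : ∀ g ∈ MM, g x0 = x0 → ∀ z ∈ B, g z ∈ B := by
      intro g hg hgx z hz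
      have h1 : (⟨g, hg⟩ : MM) • B = B := hB.smul_eq_of_mem hxB (by
        change g x0 ∈ B
        rw [hgx]; exact hxB)
      have h2 : (⟨g, hg⟩ : MM) • z ∈ (⟨g, hg⟩ : MM) • B := Set.smul_mem_smul_set hz
      rw [h1] at h2
      exact h2
    obtain ⟨z, hz, hzne⟩ := hnt.exists_ne x0
    obtain ⟨y, hy, hyne⟩ : ∃ y ∈ B, pr y ≠ i0 := by
      by_cases h : pr z = i0
      · rcases eq_of_pr (h.trans hpx0.symm) with h' | h'
        · exact absurd h' hzne
        · refine ⟨c z, hstab c hcM hcx0 z hz, ?_⟩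
          rw [h', hcx1, pr_tau]
          exact hσ1 i0
      · exact ⟨z, hz, h⟩
    -- all points outside the pair of x0
    have hout : ∀ w : Pt m 0, pr w ≠ i0 → w ∈ B := by
      intro w hw
      -- first same pair
      have h1 : lift m 0 (Equiv.swap (pr y) (pr w)) y ∈ B := by
        apply hstab _ (hWM ⟨lift_mem m 0 _, sign_lift m 0 _⟩) _ y hy
        change (Sum.inl (Equiv.swap (pr y) (pr w) i0, true) : Pt m 0) = _
        rw [Equiv.swap_apply_of_ne_of_ne hyne.symm hw.symm]
      have h2 : pr (lift m 0 (Equiv.swap (pr y) (pr w)) y) = pr w := by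
        rw [pr_act (lift_mem m 0 _), act_lift, Equiv.swap_apply_left]
      set y' := lift m 0 (Equiv.swap (pr y) (pr w)) y with hy'
      rcases eq_of_pr h2 with h3 | h3
      · rw [← h3]; exact h1
      · -- swap within the pair, together with a third pair
        obtain ⟨k, hk0, hkw⟩ : ∃ k : Fin m, k ≠ i0 ∧ k ≠ pr w := by
          by_contra hcon
          push Not at hcon
          have h1 : (Finset.univ : Finset (Fin m)) ⊆ {i0, pr w} := by
            intro z _
            rw [Finset.mem_insert, Finset.mem_singleton]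
            by_cases h : z = i0
            · exact Or.inl h
            · exact Or.inr (hcon z h)
          have h2 := (Finset.card_le_card h1).trans Finset.card_le_two
          rw [Finset.card_univ, Fintype.card_fin] at h2
          omega
        set v : Pt m 0 := Sum.inl (k, true) with hv
        have hmem : Equiv.swap w (tau m 0 w) * Equiv.swap v (tau m 0 v) ∈ MM := by
          apply hWM
          refine Subgroup.mem_inf.2 ⟨mul_mem (Bgp_le_W (swap_mem_Bgp m 0 _)) (Bgp_le_W (swap_mem_Bgp m 0 _)), ?_⟩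
          rw [Equiv.Perm.mem_alternatingGroup, map_mul, Equiv.Perm.sign_swap (hne w).symm,
            Equiv.Perm.sign_swap (hne v).symm]
          rfl
        have e1 : x0 ≠ v := hprne fun h => hk0 h.symm
        have e2 : x0 ≠ tau m 0 v := hprne (by rw [pr_tau]; exact fun h => hk0 h.symm)
        have e3 : x0 ≠ w := hprne fun h => hw h.symm
        have e4 : x0 ≠ tau m 0 w := hprne (by rw [pr_tau]; exact fun h => hw h.symm)
        have e5 : tau m 0 w ≠ v := hprne (by rw [pr_tau]; exact fun h => hkw h.symm)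
        have e6 : tau m 0 w ≠ tau m 0 v := hprne (by rw [pr_tau, pr_tau]; exact fun h => hkw h.symm)
        have h4 := hstab _ hmem (by
          rw [Perm.mul_apply, Equiv.swap_apply_of_ne_of_ne e1 e2, Equiv.swap_apply_of_ne_of_ne e3 e4]) y' h1
        rw [h3, Perm.mul_apply, Equiv.swap_apply_of_ne_of_ne e5 e6, Equiv.swap_apply_right] at h4
        exact h4
    rw [Set.eq_univ_iff_forall]
    intro w
    by_cases hw : pr w = i0
    · rcases eq_of_pr (hw.trans hpx0.symm) with h | h
      · rw [h]; exact hxB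
      · rw [h, ← hcy0]
        exact hstab c hcM hcx0 y0 (hout y0 (hσ1 i0))
    · exact hout w hw
  exact hyp.not_le (alternatingGroup_le_of_isPreprimitive_of_isThreeCycle_mem hprim hc3 hcM)

/-! ### The main theorem -/

theorem main {m r : ℕ} (hr : r ≤ 1) (hn : 5 ≤ 2 * m + r) (h6 : 2 * m + r ≠ 6)
    (G' : Subgroup (Perm (Pt m r))) (hA : alternatingGroup (Pt m r) ≤ G') (R : Sylow 2 G') :
    UM (R : Subgroup G') ↔ ∃ k : ℕ, 2 ≤ k ∧ 2 * m + r = 2 ^ k + 1 := by
  have : NeZero m := ⟨by omega⟩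
  obtain ⟨R0, hR0⟩ := exists_sylow_le_W (by omega) hr G' hA
  refine UM_sylow_of_one _ R0 ?_ R
  constructor
  · intro h
    by_contra hcon
    push Not at hcon
    obtain ⟨MM, hyp⟩ := hyp_of_UM G' hA R0 h
    have hR2 : IsPGroup 2 ((R0 : Subgroup G').map G'.subtype) := R0.isPGroup'.map _
    have hRW : (R0 : Subgroup G').map G'.subtype ≤ W m r := by
      rintro _ ⟨g, hg, rfl⟩
      exact hR0 hg
    obtain ⟨j, q, hq, hmj⟩ := Nat.exists_eq_two_pow_mul_odd (n := 2 * m) (by omega)
    have hj : 1 ≤ j := by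
      rcases Nat.eq_zero_or_pos j with h0 | h0
      · subst h0
        rw [pow_zero, one_mul] at hmj
        rw [← hmj] at hq
        exact absurd hq (by rw [Nat.not_odd_iff_even]; exact ⟨m, by ring⟩)
      · exact h0
    by_cases hq1 : q = 1
    · subst hq1
      rw [mul_one] at hmj
      interval_cases r
      · have hj3 : 3 ≤ j := by
          by_contra hlt
          have : 2 ^ j ≤ 2 ^ 2 := Nat.pow_le_pow_right (by norm_num) (by omega)
          omega
        obtain ⟨i, rfl⟩ : ∃ i, j = i + 3 := ⟨j - 3, by omega⟩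
        have hpos : 0 < 2 ^ i := by positivity
        exact partB3 (m' := 2 ^ i * 2) (by rw [pow_add] at hmj; omega) (by omega) hR2 hRW hyp
      · have hj2 : 2 ≤ j := by
          by_contra hlt
          have : 2 ^ j ≤ 2 ^ 1 := Nat.pow_le_pow_right (by norm_num) (by omega)
          omega
        exact hcon j hj2 (by rw [hmj])
    · have hq3 : 3 ≤ q := by
        obtain ⟨t, ht⟩ := hq
        omega
      interval_cases r
      · exact partB1 (by omega) hq hq3 hmj hR2 hRW hyp
      · exact partB2 (by omega) hq hq3 hmj hj hR2 hRW hyp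
  · rintro ⟨k, hk, hk'⟩
    obtain ⟨i, rfl⟩ : ∃ i, k = i + 2 := ⟨k - 2, by omega⟩
    have hr1 : r = 1 := by
      rw [pow_add] at hk'
      omega
    subst hr1
    have hm : m = 2 ^ (i + 1) := by
      rw [pow_succ]; rw [pow_add] at hk'; omega
    have hST : ST m := by rw [hm]; exact ST_two_pow _
    refine partA (by omega) hST G' hA ?_ R0 hR0
    rcases Nat.eq_zero_or_pos i with h0 | h0
    · left; rw [hm, h0]; rfl
    · right
      obtain ⟨l, rfl⟩ : ∃ l, i = l + 1 := ⟨i - 1, by omega⟩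
      have hpos : 0 < 2 ^ l := by positivity
      rw [hm, pow_succ, pow_succ]
      omega

end Cfsg.Agent.H14.SylowMax
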