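import Mathlib
import Cfsg.Agent.H6_ChevCard

/-!
Borel–Tits theorem for Chevalley groups, part 1: subgroups attached to real functionals.
-/

set_option autoImplicit false
set_option linter.unusedSectionVars false

namespace Cfsg.Agent.H6.Chev

open Cfsg Cfsg.Lie Cfsg.Lie.ChevalleyDatum

namespace Model

variable {D : ChevalleyDatum} {F : Type*} [Field F]

section

variable {m : Model D}

theorem Good.split {L : List ℕ} (h : m.Good L) {R₁ R₂ : ℕ → Prop} (h12 : ∀ r ∈ L, R₁ r ∨ R₂ r) {y : GL D.Idx F}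
    (hy : y ∈ m.UL F L) :
    ∃ a ∈ m.gen F (fun r => r ∈ L ∧ R₁ r), ∃ b ∈ m.gen F (fun r => r ∈ L ∧ R₂ r), y = a * b := by
  induction L generalizing y with
  | nil =>
    obtain ⟨t, rfl⟩ := h.exists_nf hy
    exact ⟨1, one_mem _, 1, one_mem _, by simp [nf]⟩
  | cons k L ih =>
    have h12' : ∀ r ∈ L, R₁ r ∨ R₂ r := fun r hr => h12 r (List.mem_cons_of_mem _ hr)
    have mono : ∀ R : ℕ → Prop, m.gen F (fun r => r ∈ L ∧ R r) ≤ m.gen F (fun r => r ∈ k :: L ∧ R r) :=
      fun R => m.gen_mono fun r _ hr => ⟨List.mem_cons_of_mem _ hr.1, hr.2⟩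
    have mono2 : ∀ R : ℕ → Prop, m.gen F (fun r => r ∈ L ∧ R r) ≤ m.UL F L :=
      fun R => m.gen_mono fun r _ hr => hr.1
    obtain ⟨t, y', hy', rfl⟩ := h.exists_mul hy
    obtain ⟨a, ha, b, hb, rfl⟩ := ih h.tail h12' hy'
    rcases h12 k List.mem_cons_self with h1 | h2
    · exact ⟨m.X k t * a, mul_mem (m.X_mem_gen (R := fun r => r ∈ k :: L ∧ R₁ r) ⟨List.mem_cons_self, h1⟩ t) (mono _ ha),
        b, mono _ hb, by rw [mul_assoc]⟩
    · have hc : a⁻¹ * (m.X k t * a * (m.X k t)⁻¹) ∈ m.UL F L :=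
        mul_mem (inv_mem (mono2 _ ha)) ((Subgroup.mem_normalizer_iff.1 (h.norm t) a).1 (mono2 _ ha))
      obtain ⟨a', ha', b', hb', hc'⟩ := ih h.tail h12' hc
      refine ⟨a * a', mul_mem (mono _ ha) (mono _ ha'), b' * m.X k t * b,
        mul_mem (mul_mem (mono _ hb') (m.X_mem_gen (R := fun r => r ∈ k :: L ∧ R₂ r) ⟨List.mem_cons_self, h2⟩ t)) (mono _ hb), ?_⟩
      calc m.X k t * (a * b) = a * (a⁻¹ * (m.X k t * a * (m.X k t)⁻¹)) * m.X k t * b := by group
        _ = a * a' * (b' * m.X k t * b) := by rw [hc']; group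

theorem nf_filter (p : ℕ → Bool) (L : List ℕ) {t : ℕ → F} (h : ∀ r ∈ L, p r = false → t r = 0) :
    m.nf L t = m.nf (L.filter p) t := by
  induction L with
  | nil => rfl
  | cons k L ih =>
    have ih' := ih fun r hr => h r (List.mem_cons_of_mem _ hr)
    cases hk : p k
    · rw [List.filter_cons_of_neg (by simp [hk]), nf_cons, h k List.mem_cons_self hk, m.X_zero, one_mul, ih']
    · rw [List.filter_cons_of_pos hk, nf_cons, nf_cons, ih']

/-- intersections of subgroups generated by closed sets of positive roots -/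
theorem inter_filter {L : List ℕ} (hL : m.Good L) {p q : ℕ → Bool} (hP : m.Good (L.filter p))
    (hQ : m.Good (L.filter q)) {x : GL D.Idx F} (h1 : x ∈ m.UL F (L.filter p))
    (h2 : x ∈ m.UL F (L.filter q)) : x ∈ m.gen F (fun r => r ∈ L ∧ p r = true ∧ q r = true) := by
  have key : ∀ s : ℕ → Bool, m.Good (L.filter s) → x ∈ m.UL F (L.filter s) →
      ∃ t : ℕ → F, (∀ r, s r = false → t r = 0) ∧ x = m.nf L t := by
    intro s hR hx
    obtain ⟨t, ht⟩ := hR.exists_nf hx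
    refine ⟨fun r => if s r = true then t r else 0, fun r hr => by simp [hr], ?_⟩
    rw [nf_filter s L (fun r _ hr => by simp [hr]), ht]
    apply nf_congr
    intro r hr
    have hr' := (List.mem_filter.1 hr).2
    simp [hr']
  obtain ⟨t, ht, hx⟩ := key p hP h1
  obtain ⟨u, hu, hx'⟩ := key q hQ h2
  have h3 := hL.nf_inj (hx.symm.trans hx')
  rw [hx, nf_filter (fun r => p r && q r) L]
  · refine m.gen_mono (fun r _ hr => ?_) (nf_mem _ _)
    have hr' := List.mem_filter.1 hr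
    rw [Bool.and_eq_true] at hr'
    exact hr'
  · intro r hr hn
    cases hp : p r
    · exact ht r hp
    · rw [h3 r hr]
      apply hu
      rw [hp, Bool.true_and] at hn
      exact hn

end

variable (m : Model D)

/-- evaluation of a real functional at a root -/
def ev (lam : Fin D.rank → ℝ) (r : ℕ) : ℝ := ∑ i : Fin D.rank, (m.coef r i : ℝ) * lam i

theorem ev_neg (lam : Fin D.rank → ℝ) {r : ℕ} (hr : r < D.nroots) : m.ev lam (D.neg r) = - m.ev lam r := by
  unfold ev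
  rw [← Finset.sum_neg_distrib]
  apply Finset.sum_congr rfl
  intro i _
  rw [m.coef_neg r hr i i.2]
  push_cast; ring

theorem ev_p (lam : Fin D.rank → ℝ) (i : Fin D.rank) : m.ev lam (m.p i) = lam i := by
  unfold ev
  rw [Finset.sum_eq_single i]
  · rw [coe_p, m.coef_simple i i.2 i i.2]; simp
  · intro j _ hj
    rw [coe_p, m.coef_simple i i.2 j j.2, if_neg (fun h => hj (Fin.ext h.symm))]; simp
  · intro h; exact absurd (Finset.mem_univ _) h

theorem ev_comm (lam : Fin D.rank → ℝ) {r s : ℕ} (hr : r < D.nroots) (hs : s < D.nroots) (hrs : s ≠ r)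
    (hneg : s ≠ D.neg r) {c : ℕ × ℤ × ℕ × ℕ} (hc : c ∈ D.commTerms r s) :
    m.ev lam c.1 = c.2.2.1 * m.ev lam r + c.2.2.2 * m.ev lam s := by
  have h := (m.comm_lt r hr s hs hrs hneg c hc).2.2.2
  unfold ev
  rw [Finset.mul_sum, Finset.mul_sum, ← Finset.sum_add_distrib]
  apply Finset.sum_congr rfl
  intro i _
  rw [h i i.2]
  push_cast; ring

theorem ev_nonneg {lam : Fin D.rank → ℝ} (hd : ∀ i, 0 ≤ lam i) {r : ℕ} (hr : r < D.nroots) (hN : m.N ≤ r) :
    0 ≤ m.ev lam r := by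
  apply Finset.sum_nonneg
  intro i _
  exact mul_nonneg (by exact_mod_cast m.coef_nonneg r hN hr i i.2) (hd i)

theorem ev_nonpos {lam : Fin D.rank → ℝ} (hd : ∀ i, 0 ≤ lam i) {r : ℕ} (hr : r < m.N) :
    m.ev lam r ≤ 0 := by
  have h0 := m.nroots_eq
  have hr' : r < D.nroots := by omega
  have := m.ev_nonneg hd (m.neg_lt hr') ((m.neg_ge_iff hr').2 hr)
  rw [m.ev_neg lam hr'] at this
  linarith

/-- pull back along an element of the Weyl group -/
def pull (w : Equiv.Perm (Fin D.nroots)) (lam : Fin D.rank → ℝ) : Fin D.rank → ℝ := fun i => m.ev lam (w (m.p i))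

theorem ev_pull {w : Equiv.Perm (Fin D.nroots)} (hw : m.IsW w) (lam : Fin D.rank → ℝ) (r : Fin D.nroots) :
    m.ev (m.pull w lam) r = m.ev lam (w r) := by
  unfold pull
  unfold ev
  have h1 : ∀ j : Fin D.rank, (m.coef (w r) j : ℝ) * lam j =
      ∑ k : Fin D.rank, (m.coef r k : ℝ) * ((m.coef (w (m.p k)) j : ℝ) * lam j) := by
    intro j
    rw [hw.lin r j j.2]
    push_cast
    rw [Finset.sum_mul]
    exact Finset.sum_congr rfl fun _ _ => by ring
  rw [Finset.sum_congr rfl fun j _ => h1 j, Finset.sum_comm]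
  apply Finset.sum_congr rfl
  intro k _
  rw [← Finset.mul_sum]

theorem ev_add (lam mu : Fin D.rank → ℝ) (r : ℕ) : m.ev (lam + mu) r = m.ev lam r + m.ev mu r := by
  unfold ev
  rw [← Finset.sum_add_distrib]
  exact Finset.sum_congr rfl fun _ _ => by rw [Pi.add_apply]; ring

theorem ev_smul (c : ℝ) (lam : Fin D.rank → ℝ) (r : ℕ) : m.ev (c • lam) r = c * m.ev lam r := by
  unfold ev
  rw [Finset.mul_sum]
  exact Finset.sum_congr rfl fun _ _ => by rw [Pi.smul_apply, smul_eq_mul]; ring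

/-- the subgroup of a functional -/
def KK (F : Type*) [Field F] (lam : Fin D.rank → ℝ) : Subgroup (GL D.Idx F) := m.gen F (fun r => 1 ≤ m.ev lam r)

open Classical in
theorem good_ev (lam : Fin D.rank → ℝ) : m.Good ((List.range' m.N m.N).filter fun r => 1 ≤ m.ev lam r) where
  sorted := List.Pairwise.filter _ List.pairwise_lt_range'
  pos := fun r hr => by
    have := m.nroots_eq
    rw [List.mem_filter, List.mem_range'_1] at hr
    omega
  closed := by
    intro r hr s hs hrs c hc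
    rw [List.mem_filter, List.mem_range'_1, decide_eq_true_iff] at hr hs ⊢
    have hn := m.nroots_eq
    have hgt := m.comm_gt (by omega) (by omega) (by omega) (by omega) (Ne.symm hrs.ne) hc
    refine ⟨by omega, ?_⟩
    have hneg : s ≠ D.neg r := by
      have := (m.neg_lt_iff (r := r) (by omega)).2 (by omega)
      omega
    have h1 := m.comm_lt r (by omega) s (by omega) (Ne.symm hrs.ne) hneg c hc
    rw [m.ev_comm lam (by omega) (by omega) (Ne.symm hrs.ne) hneg hc]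
    have h5 : (1 : ℝ) ≤ (c.2.2.1 : ℝ) := by exact_mod_cast h1.2.1
    have h6 : (1 : ℝ) ≤ (c.2.2.2 : ℝ) := by exact_mod_cast h1.2.2.1
    nlinarith [hr.2, hs.2]

open Classical in
theorem KK_eq {lam : Fin D.rank → ℝ} (hd : ∀ i, 0 ≤ lam i) :
    m.KK F lam = m.UL F ((List.range' m.N m.N).filter fun r => 1 ≤ m.ev lam r) := by
  apply m.gen_congr
  intro r hr
  rw [List.mem_filter, List.mem_range'_1, decide_eq_true_iff]
  have hn := m.nroots_eq
  constructor
  · intro h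
    refine ⟨⟨?_, by omega⟩, h⟩
    by_contra hc
    have := m.ev_nonpos hd (not_le.1 hc)
    linarith
  · exact fun h => h.2

theorem KK_le_U {lam : Fin D.rank → ℝ} (hd : ∀ i, 0 ≤ lam i) : m.KK F lam ≤ D.posUnipotent F := by
  rw [m.posUnipotent_eq]
  apply m.gen_mono
  intro r hr h
  by_contra hc
  have := m.ev_nonpos hd (not_le.1 hc)
  linarith

theorem conj_KK {g : GL D.Idx F} {w : Equiv.Perm (Fin D.nroots)} (hg : g ∈ D.monomialSubgroup F) (h : m.Acts g w)
    (lam : Fin D.rank → ℝ) : (m.KK F lam).map (MulAut.conj g).toMonoidHom = m.KK F (m.pull w⁻¹ lam) := by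
  apply m.map_gen_eq hg h
  intro r
  have hw := (m.acts_inv hg h).isW
  rw [m.ev_pull hw, ← Equiv.Perm.mul_apply, inv_mul_cancel]
  rfl

theorem B_le_normalizer_KK {lam : Fin D.rank → ℝ} (hd : ∀ i, 0 ≤ lam i) :
    D.borelSubgroup F ≤ Subgroup.normalizer (m.KK F lam : Set (GL D.Idx F)) := by
  unfold ChevalleyDatum.borelSubgroup
  rw [sup_le_iff]
  refine ⟨?_, m.H_le_normalizer_gen _⟩
  rw [m.posUnipotent_eq]
  apply m.gen_le
  intro k hk hkN t
  apply m.X_mem_normalizer hk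
  intro s hs h1
  have hk0 := m.ev_nonneg hd hk hkN
  have hne : s ≠ D.neg k := by
    rintro rfl
    rw [m.ev_neg lam hk] at h1
    linarith
  refine ⟨hne, ?_⟩
  intro hsk c hc
  have h2 := m.comm_lt k hk s hs hsk hne c hc
  rw [m.ev_comm lam hk hs hsk hne hc]
  have h5 : (1 : ℝ) ≤ (c.2.2.1 : ℝ) := by exact_mod_cast h2.2.1
  have h6 : (1 : ℝ) ≤ (c.2.2.2 : ℝ) := by exact_mod_cast h2.2.2.1
  nlinarith

/-- intersection of two of the subgroups in a common apartment -/
theorem KK_inter {lam mu : Fin D.rank → ℝ} (hl : ∀ i, 0 ≤ lam i) (hm : ∀ i, 0 ≤ mu i) {n : GL D.Idx F}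
    {w : Equiv.Perm (Fin D.nroots)} (hn : n ∈ D.monomialSubgroup F) (hw : m.Acts n w) :
    m.KK F lam ⊓ (m.KK F mu).map (MulAut.conj n).toMonoidHom ≤
      m.gen F (fun r => 1 ≤ m.ev lam r ∧ 1 ≤ m.ev (m.pull w⁻¹ mu) r) := by
  classical
  rintro x ⟨hx, hx'⟩
  obtain ⟨y, hy, hyx⟩ := hx'
  change n * y * n⁻¹ = x at hyx
  have hxU := m.KK_le_U hl hx
  rw [SetLike.mem_coe, m.KK_eq hm] at hy
  have hWi := (m.acts_inv hn hw).isW
  obtain ⟨a, ha, b, hb, rfl⟩ := (m.good_ev mu).split (R₁ := fun r => ∃ h : r < D.nroots, m.N ≤ (w ⟨r, h⟩ : ℕ))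
    (R₂ := fun r => ∃ h : r < D.nroots, (w ⟨r, h⟩ : ℕ) < m.N) (fun r hr => by
      have hr' := ((m.good_ev mu).pos r hr).2
      by_cases h : m.N ≤ (w ⟨r, hr'⟩ : ℕ)
      · exact Or.inl ⟨hr', h⟩
      · exact Or.inr ⟨hr', not_le.1 h⟩) hy
  have ha' : n * a * n⁻¹ ∈ m.gen F (fun r => m.N ≤ r ∧ 1 ≤ m.ev (m.pull w⁻¹ mu) r) := by
    have h1 := m.map_gen_acts (F := F) hw (R := fun r => r ∈ (List.range' m.N m.N).filter (fun r => 1 ≤ m.ev mu r) ∧
      ∃ h : r < D.nroots, m.N ≤ (w ⟨r, h⟩ : ℕ)) (R' := fun r => m.N ≤ r ∧ 1 ≤ m.ev (m.pull w⁻¹ mu) r) (by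
        rintro r ⟨h1, h2, h3⟩
        rw [List.mem_filter, decide_eq_true_iff] at h1
        refine ⟨h3, ?_⟩
        rw [m.ev_pull hWi, ← Equiv.Perm.mul_apply, inv_mul_cancel]
        exact h1.2)
    exact h1 ⟨a, ha, rfl⟩
  have hb' : n * b * n⁻¹ ∈ D.negUnipotent F := by
    have h1 := m.map_gen_acts (F := F) hw (R := fun r => r ∈ (List.range' m.N m.N).filter (fun r => 1 ≤ m.ev mu r) ∧
      ∃ h : r < D.nroots, (w ⟨r, h⟩ : ℕ) < m.N) (R' := fun r => r < m.N) (by
        rintro r ⟨h1, h2, h3⟩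
        exact h3)
    rw [m.negUnipotent_eq]
    exact h1 ⟨b, hb, rfl⟩
  have haU : n * a * n⁻¹ ∈ D.posUnipotent F := by
    rw [m.posUnipotent_eq]
    exact m.gen_mono (fun r _ h => h.1) ha'
  have h2 : n * b * n⁻¹ = (n * a * n⁻¹)⁻¹ * x := by rw [← hyx]; group
  have h3 : n * b * n⁻¹ ∈ D.borelSubgroup F ⊓ D.negUnipotent F :=
    ⟨by rw [h2]; exact U_le_B (mul_mem (inv_mem haU) hxU), hb'⟩
  rw [m.B_inf_V, Subgroup.mem_bot] at h3
  have h4 : x = n * a * n⁻¹ := by
    rw [h3] at h2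
    exact (inv_mul_eq_one.1 h2.symm).symm
  have h5 : x ∈ m.UL F ((List.range' m.N m.N).filter fun r => 1 ≤ m.ev (m.pull w⁻¹ mu) r) := by
    rw [h4]
    refine m.gen_mono (fun r hr h => ?_) ha'
    rw [List.mem_filter, List.mem_range'_1, decide_eq_true_iff]
    have := m.nroots_eq
    exact ⟨⟨h.1, by omega⟩, h.2⟩
  rw [SetLike.mem_coe, m.KK_eq hl] at hx
  have h6 := inter_filter m.good_pos (m.good_ev lam) (m.good_ev _) hx h5
  exact m.gen_mono (fun r _ h => ⟨of_decide_eq_true h.2.1, of_decide_eq_true h.2.2⟩) h6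

end Model

end Cfsg.Agent.H6.Chev
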