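import Mathlib
import Cfsg.Agent.H6_BT1
import Cfsg.Agent.H6_ChevT
import Cfsg.Agent.H6_ChevO
import Cfsg.Agent.H6_ChevSt

set_option autoImplicit false
set_option linter.unusedSectionVars false
set_option maxRecDepth 100000

/-!
Weakly closed subgroups of the unipotent group of a Chevalley group.
-/

namespace Cfsg.Agent.H14.Chev

open Cfsg Cfsg.Lie Cfsg.Lie.ChevalleyDatum Cfsg.Agent.H6 Cfsg.Agent.H6.Chev Cfsg.Agent.H6.Chev.Model
open scoped commutatorElement

/-- a normal subgroup of a nilpotent group generated by a smaller one modulo commutators -/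
theorem le_of_le_sup_commutator {P : Type*} [Group P] [Group.IsNilpotent P] {X N : Subgroup P} [X.Normal]
    (h : N ≤ X ⊔ ⁅N, (⊤ : Subgroup P)⁆) : N ≤ X := by
  have h1 : N.map (QuotientGroup.mk' X) ≤ ⁅N.map (QuotientGroup.mk' X), (⊤ : Subgroup (P ⧸ X))⁆ := by
    refine (Subgroup.map_mono h).trans ?_
    rw [Subgroup.map_sup, Subgroup.map_commutator]
    apply sup_le
    · rw [QuotientGroup.map_mk'_self]; exact bot_le
    · exact Subgroup.commutator_mono le_rfl le_top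
  have h2 : ∀ k, N.map (QuotientGroup.mk' X) ≤ (⊤ : Subgroup (P ⧸ X)).lowerCentralSeries k := by
    intro k
    induction k with
    | zero => exact le_top
    | succ k ih => exact h1.trans (Subgroup.commutator_mono ih le_rfl)
  have hnil : Group.IsNilpotent (P ⧸ X) := inferInstance
  obtain ⟨k, hk⟩ := Subgroup.nilpotent_iff_lowerCentralSeries.1 hnil
  have h3 := h2 k
  rw [hk] at h3
  intro x hx
  have h4 : QuotientGroup.mk' X x = 1 := h3 ⟨x, hx, rfl⟩
  exact (QuotientGroup.eq_one_iff x).1 h4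

section

variable {D : ChevalleyDatum} (m : Model D) {F : Type*} [Field F]

/-- coefficient of an element of `U` at a fundamental root -/
def Cf (i : Fin D.rank) (y : GL D.Idx F) (t : F) : Prop := (m.X (m.p i) t)⁻¹ * y ∈ m.Up F i

variable {m}

theorem Cf.mul {i : Fin D.rank} {y z : GL D.Idx F} {t s : F} (hy : Cf m i y t) (hz : Cf m i z s) :
    Cf m i (y * z) (t + s) := by
  unfold Cf at *
  have h1 := m.X_norm_Up (F := F) (m.p_pos i) i s
  have h2 : (m.X (m.p i) s)⁻¹ * ((m.X (m.p i) t)⁻¹ * y) * m.X (m.p i) s ∈ m.Up F i := by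
    have := (Subgroup.mem_normalizer_iff.1 (inv_mem h1) ((m.X (m.p i) t)⁻¹ * y)).1 hy
    rwa [inv_inv] at this
  have h3 := mul_mem h2 hz
  convert h3 using 1
  rw [m.X_add, mul_inv_rev]
  have h4 := m.X_comm (F := F) (m.p i) t s
  have h5 : (m.X (m.p i) s)⁻¹ * (m.X (m.p i) t)⁻¹ = (m.X (m.p i) t)⁻¹ * (m.X (m.p i) s)⁻¹ := by
    rw [← mul_inv_rev, h4, mul_inv_rev]
  group

theorem Cf.inv {i : Fin D.rank} {y : GL D.Idx F} {t : F} (hy : Cf m i y t) : Cf m i y⁻¹ (-t) := by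
  unfold Cf at *
  have h1 := m.X_norm_Up (F := F) (m.p_pos i) i t
  have h2 := (Subgroup.mem_normalizer_iff.1 h1 ((m.X (m.p i) t)⁻¹ * y)⁻¹).1 (inv_mem hy)
  convert h2 using 1
  rw [m.X_neg]
  group

theorem Cf.dm {i : Fin D.rank} {y : GL D.Idx F} {t : F} (hy : Cf m i y t) (χ : ℕ → Fˣ) :
    Cf m i (m.dmHom χ * y * (m.dmHom χ)⁻¹) (((m.chi χ (m.p i) : Fˣ) : F) * t) := by
  unfold Cf at *
  have h1 := m.dm_norm (F := F) χ (fun r => m.N ≤ r ∧ r ≠ m.p i)
  have h2 := (Subgroup.mem_normalizer_iff.1 h1 ((m.X (m.p i) t)⁻¹ * y)).1 hy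
  have h3 := m.dm_X (F := F) χ (m.p i) t
  have h4 : m.X (m.p i) (((m.chi χ (m.p i) : Fˣ) : F) * t) = m.dmHom χ * m.X (m.p i) t * (m.dmHom χ)⁻¹ := by
    rw [h3]; group
  rw [h4]
  have h5 : (m.dmHom χ * m.X (m.p i) t * (m.dmHom χ)⁻¹)⁻¹ * (m.dmHom χ * y * (m.dmHom χ)⁻¹) =
      m.dmHom χ * ((m.X (m.p i) t)⁻¹ * y) * (m.dmHom χ)⁻¹ := by group
  rw [h5]
  exact h2

theorem Cf_X (i : Fin D.rank) (t : F) : Cf m i (m.X (m.p i) t) t := by
  unfold Cf
  rw [inv_mul_cancel]
  exact one_mem _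

theorem Cf_Up {i : Fin D.rank} {y : GL D.Idx F} (hy : y ∈ m.Up F i) : Cf m i y 0 := by
  unfold Cf
  rwa [m.X_zero, inv_one, one_mul]

theorem Cf.mem {i : Fin D.rank} {y : GL D.Idx F} (h : Cf m i y 0) : y ∈ m.Up F i := by
  unfold Cf at h
  rwa [m.X_zero, inv_one, one_mul] at h

theorem exists_Cf (i : Fin D.rank) {y : GL D.Idx F} (hy : y ∈ m.gen F (fun r => m.N ≤ r)) : ∃ t, Cf m i y t := by
  refine m.gen_induction (p := fun y => ∃ t, Cf m i y t) ⟨0, Cf_Up (one_mem _)⟩ ?_ hy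
  rintro r hr hrN t g _ ⟨s, hs⟩
  by_cases h : r = m.p i
  · subst h
    exact ⟨_, (Cf_X i t).mul hs⟩
  · exact ⟨_, (Cf_Up (m.X_mem_gen (R := fun r => m.N ≤ r ∧ r ≠ m.p i) ⟨hrN, h⟩ t)).mul hs⟩

theorem Cf.unique {i : Fin D.rank} {y : GL D.Idx F} {t s : F} (hy : Cf m i y t) (hs : Cf m i y s) : t = s := by
  have h1 := hy.mul hs.inv
  rw [mul_inv_cancel] at h1
  unfold Cf at h1
  rw [mul_one] at h1
  have h2 := inv_mem h1
  rw [inv_inv] at h2
  -- `X_{p_i}(u)` in `Up` forces `u = 0`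
  have h3 : m.n F i * m.X (m.p i) (t + -s) * (m.n F i)⁻¹ ∈ m.Up F i := by
    have := m.n_map_Up (F := F) i
    rw [← this]
    exact ⟨_, h2, rfl⟩
  obtain ⟨u, hu⟩ := m.exists_conj_eq' (m.acts_n (F := F) i) (m.p i) (t + -s)
  rw [hu, m.sr_p] at h3
  have h4 : m.X (m.ng (m.p i)) u ∈ D.borelSubgroup F ⊓ D.negUnipotent F :=
    Subgroup.mem_inf.2 ⟨Model.U_le_B (m.Up_le_U i h3), m.X_mem_neg ((m.ng_lt_iff _).2 (m.p_pos i)) u⟩
  rw [m.B_inf_V, Subgroup.mem_bot] at h4
  have h5 := m.X_eq_one (Fin.is_lt _) h4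
  subst h5
  rw [m.X_zero, mul_inv_eq_one, mul_eq_left] at hu
  have h6 := m.X_eq_one (m.p i).2 hu
  linear_combination h6

end

/-- commutator words generate the non-fundamental root subgroups -/
def NSp {D : ChevalleyDatum} (m : Model D) (F : Type*) [Field F] : Prop :=
  ∀ (J : Set ℕ) (K : Subgroup (GL D.Idx F)),
    (∀ a b : ℕ, m.N ≤ a → m.N ≤ b → a < D.nroots → b < D.nroots → b ≠ a →
      ¬ (D.InRootSub J a ∧ D.InRootSub J b) → ∀ t u : F, m.word (D.commWord F a b t u) ∈ K) →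
    ∀ r, m.N ≤ r → r < D.nroots → (∀ i < D.rank, r ≠ D.simple i) → ¬ D.InRootSub J r → ∀ t : F, m.X r t ∈ K

/-- separation of the fundamental roots by the torus -/
def Sep {D : ChevalleyDatum} (m : Model D) (F : Type*) [Field F] : Prop :=
  ∀ i j : Fin D.rank, i ≠ j → ∃ b : ℕ → Fˣ, m.chi (Model.hC D b) (m.p j) = 1 ∧ m.chi (Model.hC D b) (m.p i) ≠ 1

/-- the torus acts irreducibly on each fundamental root subgroup -/
def Full {D : ChevalleyDatum} (m : Model D) (F : Type*) [Field F] : Prop :=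
  ∀ (i : Fin D.rank) (L : AddSubgroup F), L ≠ ⊥ →
    (∀ (b : ℕ → Fˣ), ∀ t ∈ L, ((m.chi (Model.hC D b) (m.p i) : Fˣ) : F) * t ∈ L) → L = ⊤

section

variable {D : ChevalleyDatum} (m : Model D) {F : Type*} [Field F]

/-- `n_v` for the longest element of `W_J` -/
theorem exists_longestJ (J : Set ℕ) : ∃ v ∈ m.WJ J, (∀ r : Fin D.nroots, m.N ≤ r → D.InRootSub J r → (v r : ℕ) < m.N) ∧
    (∀ r : Fin D.nroots, m.N ≤ r → ¬ D.InRootSub J r → m.N ≤ (v r : ℕ)) := by
  obtain ⟨v, hv⟩ := Finite.exists_max (fun v : m.WJ J => (m.inv (v : Equiv.Perm (Fin D.nroots))).card)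
  have hvW := m.WJ_le J v.2
  have hW := m.isW hvW
  have hneg : ∀ i : Fin D.rank, (i : ℕ) ∈ J → ((v : Equiv.Perm (Fin D.nroots)) (m.p i) : ℕ) < m.N := by
    intro i hi
    by_contra hc
    rw [not_lt] at hc
    have h1 := m.card_inv_mul hW hc
    have h2 := hv ⟨(v : Equiv.Perm (Fin D.nroots)) * m.sr i, mul_mem v.2 (m.sr_mem_WJ hi)⟩
    change (m.inv ((v : Equiv.Perm (Fin D.nroots)) * m.sr i)).card ≤ _ at h2
    omega
  refine ⟨v, v.2, ?_, ?_⟩
  · intro r hr hrJ
    have h0 := (m.inRootSub_iff' r.2).1 hrJ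
    by_contra hc
    have h1 := m.lam_pos ((v : Equiv.Perm (Fin D.nroots)) r).2 (not_lt.1 hc)
    have h2 := hW.evr m.wt r
    rw [← m.lam_eq_evr] at h2
    have h3 : m.evr (fun k => if h : k < D.rank then m.evr m.wt ((v : Equiv.Perm (Fin D.nroots)) (m.p ⟨k, h⟩)) else 0) r ≤ 0 := by
      unfold Model.evr
      apply Finset.sum_nonpos
      intro j hj
      have hj' := Finset.mem_range.1 hj
      beta_reduce
      rw [dif_pos hj']
      by_cases hjJ : j ∈ J
      · apply mul_nonpos_of_nonneg_of_nonpos (m.coef_nonneg r hr r.2 j hj')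
        have := m.lam_neg' (hneg ⟨j, hj'⟩ hjJ)
        exact this.le
      · rw [h0 j hj' hjJ, zero_mul]
    omega
  · intro r hr hrJ
    rw [m.inRootSub_iff' r.2] at hrJ
    push Not at hrJ
    obtain ⟨k, hk, hkJ, hne⟩ := hrJ
    have h1 : m.coef ((v : Equiv.Perm (Fin D.nroots)) r) k = m.coef r k := by
      obtain ⟨l, hl, hlv⟩ := m.exists_wlJ v.2
      rw [← hlv]
      clear hlv hneg hv hvW hW
      induction l with
      | nil => rfl
      | cons a l ih =>
        have h2 := ih fun b hb => hl b (List.mem_cons_of_mem _ hb)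
        rw [Model.wl_cons, Equiv.Perm.mul_apply, m.coe_sr, m.coef_refl a a.2 _ (Fin.is_lt _) k hk, if_neg, sub_zero, h2]
        rintro rfl
        exact hkJ (hl a List.mem_cons_self)
    refine m.pos_of_coef (Fin.is_lt _) hk ?_
    rw [h1]
    exact lt_of_le_of_ne (m.coef_nonneg r hr r.2 k hk) (Ne.symm hne)


open Classical in
/-- positive roots outside `Φ_J` and different from the fundamental roots in `S` -/
noncomputable def LS (J : Set ℕ) (S : Finset (Fin D.rank)) : List ℕ :=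
  (List.range' m.N m.N).filter (fun r => decide (¬ D.InRootSub J r ∧ ∀ j ∈ S, r ≠ m.p j))

open Classical in
theorem mem_LS {J : Set ℕ} {S : Finset (Fin D.rank)} {r : ℕ} :
    r ∈ LS m J S ↔ (m.N ≤ r ∧ r < D.nroots) ∧ ¬ D.InRootSub J r ∧ ∀ j ∈ S, r ≠ m.p j := by
  unfold LS
  have h := m.nroots_eq
  rw [List.mem_filter, List.mem_range'_1]
  constructor
  · rintro ⟨⟨h1, h2⟩, h3⟩
    exact ⟨⟨h1, by omega⟩, of_decide_eq_true h3⟩
  · rintro ⟨⟨h1, h2⟩, h3⟩
    exact ⟨⟨h1, by omega⟩, decide_eq_true h3⟩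

theorem not_sub_of_comm {J : Set ℕ} {r s : ℕ} (hrN : m.N ≤ r) (hsN : m.N ≤ s) (hr : r < D.nroots) (hs : s < D.nroots)
    (hrs : s ≠ r) (h : ¬ D.InRootSub J r ∨ ¬ D.InRootSub J s) {c : ℕ × ℤ × ℕ × ℕ} (hc : c ∈ D.commTerms r s) :
    ¬ D.InRootSub J c.1 := by
  have h2 : s ≠ D.neg r := by
    intro h
    have := (m.neg_lt_iff hr).2 hrN
    omega
  have h3 := m.comm_lt r hr s hs hrs h2 c hc
  have key : ∀ k < D.rank, k ∉ J → (m.coef r k ≠ 0 ∨ m.coef s k ≠ 0) → ¬ D.InRootSub J c.1 := by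
    intro k hk hkJ hne hsub
    have h4 := (m.inRootSub_iff' h3.1).1 hsub k hk hkJ
    rw [h3.2.2.2 k hk] at h4
    have h5 := m.coef_nonneg r hrN hr k hk
    have h6 := m.coef_nonneg s hsN hs k hk
    have h7 : (1 : ℤ) ≤ (c.2.2.1 : ℤ) := by exact_mod_cast h3.2.1
    have h8 : (1 : ℤ) ≤ (c.2.2.2 : ℤ) := by exact_mod_cast h3.2.2.1
    rcases hne with hne | hne
    · have h9 : 0 < m.coef r k := lt_of_le_of_ne h5 (Ne.symm hne)
      nlinarith [mul_pos (lt_of_lt_of_le one_pos h7) h9, mul_nonneg (le_trans zero_le_one h8) h6]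
    · have h9 : 0 < m.coef s k := lt_of_le_of_ne h6 (Ne.symm hne)
      nlinarith [mul_pos (lt_of_lt_of_le one_pos h8) h9, mul_nonneg (le_trans zero_le_one h7) h5]
  rcases h with h | h
  · rw [m.inRootSub_iff' hr] at h
    push Not at h
    obtain ⟨k, hk, hkJ, hne⟩ := h
    exact key k hk hkJ (Or.inl hne)
  · rw [m.inRootSub_iff' hs] at h
    push Not at h
    obtain ⟨k, hk, hkJ, hne⟩ := h
    exact key k hk hkJ (Or.inr hne)

theorem good_LS (J : Set ℕ) (S : Finset (Fin D.rank)) : m.Good (LS m J S) where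
  sorted := by
    unfold LS
    exact List.Pairwise.filter _ m.good_pos.sorted
  pos := fun r hr => ((mem_LS m).1 hr).1
  closed := by
    intro r hr s hs hrs c hc
    rw [mem_LS] at hr hs ⊢
    obtain ⟨⟨hrN, hrn⟩, hrJ, -⟩ := hr
    obtain ⟨⟨hsN, hsn⟩, hsJ, -⟩ := hs
    have h1 := m.comm_gt hrN hsN hrn hsn (by omega) hc
    exact ⟨⟨by omega, h1.2.2⟩, not_sub_of_comm m hrN hsN hrn hsn (by omega) (Or.inl hrJ) hc,
      fun j _ => m.comm_ne_simple hrN hsN hrn hsn (by omega) hc j⟩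

theorem gen_single {r : ℕ} {R : ℕ → Prop} (hR : ∀ s, R s → s = r) {y : GL D.Idx F} (hy : y ∈ m.gen F R) :
    ∃ t, y = m.X r t := by
  refine m.gen_induction (p := fun y => ∃ t, y = m.X r t) ⟨0, by rw [m.X_zero]⟩ ?_ hy
  rintro s hs hRs t g _ ⟨u, rfl⟩
  rw [hR s hRs]
  exact ⟨t + u, by rw [m.X_add]⟩

/-- elements with vanishing coefficients -/
theorem mem_LS_of_Cf {J : Set ℕ} (S : Finset (Fin D.rank)) {y : GL D.Idx F} (hy : y ∈ m.UL F (LS m J ∅))
    (h0 : ∀ j ∈ S, Cf m j y 0) : y ∈ m.UL F (LS m J S) := by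
  classical
  induction S using Finset.induction_on with
  | empty => exact hy
  | insert j S hj ih =>
    have h1 := ih fun k hk => h0 k (Finset.mem_insert_of_mem hk)
    obtain ⟨a, ha, b, hb, rfl⟩ := (good_LS m J S).split (R₁ := fun r => r = m.p j) (R₂ := fun r => r ≠ m.p j)
      (fun r _ => em _) h1
    obtain ⟨s, rfl⟩ := gen_single m (r := m.p j) (fun s hs => hs.2) ha
    have h2 : b ∈ m.Up F j := m.gen_mono (fun r _ hr => ⟨((mem_LS m).1 hr.1).1.1, hr.2⟩) hb
    have h3 := (Cf_X (m := m) j s).mul (Cf_Up h2)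
    have h4 := h3.unique (h0 j (Finset.mem_insert_self j S))
    rw [add_zero] at h4
    subst h4
    rw [m.X_zero, one_mul]
    refine m.gen_mono (fun r _ hr => ?_) hb
    rw [mem_LS]
    obtain ⟨h5, h6⟩ := hr
    rw [mem_LS] at h5
    refine ⟨h5.1, h5.2.1, fun k hk => ?_⟩
    rcases Finset.mem_insert.1 hk with rfl | hk
    · exact h6
    · exact h5.2.2 k hk

theorem exists_lead {J : Set ℕ} {i : Fin D.rank} {y : GL D.Idx F} {t : F} (hy : y ∈ m.UL F (LS m J ∅))
    (ht : Cf m i y t) (h0 : ∀ j, j ≠ i → Cf m j y 0) :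
    ∃ b ∈ m.gen F (fun r => (m.N ≤ r ∧ r < D.nroots) ∧ ¬ D.InRootSub J r ∧ ∀ j : Fin D.rank, r ≠ m.p j),
      y = m.X (m.p i) t * b := by
  classical
  have h1 := mem_LS_of_Cf m (Finset.univ.erase i) hy (fun j hj => h0 j (Finset.ne_of_mem_erase hj))
  obtain ⟨a, ha, b, hb, rfl⟩ := (good_LS m J (Finset.univ.erase i)).split (R₁ := fun r => r = m.p i)
    (R₂ := fun r => r ≠ m.p i) (fun r _ => em _) h1
  obtain ⟨s, rfl⟩ := gen_single m (r := m.p i) (fun s hs => hs.2) ha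
  have h2 : b ∈ m.Up F i := m.gen_mono (fun r _ hr => ⟨((mem_LS m).1 hr.1).1.1, hr.2⟩) hb
  have h3 := ((Cf_X (m := m) i s).mul (Cf_Up h2)).unique ht
  rw [add_zero] at h3
  subst h3
  refine ⟨b, m.gen_mono (fun r _ hr => ?_) hb, rfl⟩
  obtain ⟨h5, h6⟩ := hr
  rw [mem_LS] at h5
  refine ⟨h5.1, h5.2.1, fun j => ?_⟩
  by_cases hji : j = i
  · rw [hji]; exact h6
  · exact h5.2.2 j (Finset.mem_erase.2 ⟨hji, Finset.mem_univ j⟩)

set_option maxHeartbeats 800000 in
/-- weakly closed subgroups of `U` are unipotent radicals -/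
theorem weakly_closed_of (hNS : NSp m F) (hS : Sep m F) (hFull : Full m F) (X : Subgroup (GL D.Idx F))
    (hXU : X ≤ D.posUnipotent F)
    (hwc : ∀ g ∈ D.group F, X.map (MulAut.conj g).toMonoidHom ≤ D.posUnipotent F →
      X.map (MulAut.conj g).toMonoidHom = X) :
    ∃ J : Set ℕ, (∀ j ∈ J, j < D.rank) ∧ X = D.unipotentRadical F J := by
  classical
  -- elements normalizing `U` normalize `X`
  have hN : ∀ g ∈ D.group F, g ∈ Subgroup.normalizer (D.posUnipotent F : Set (GL D.Idx F)) →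
      X.map (MulAut.conj g).toMonoidHom = X := by
    intro g hg hgU
    apply hwc g hg
    rintro _ ⟨x, hx, rfl⟩
    exact (Subgroup.mem_normalizer_iff.1 hgU x).1 (hXU hx)
  have hconj : ∀ g ∈ D.group F, g ∈ Subgroup.normalizer (D.posUnipotent F : Set (GL D.Idx F)) →
      ∀ x ∈ X, g * x * g⁻¹ ∈ X := by
    intro g hg hgU x hx
    have h := hN g hg hgU
    rw [← h]
    exact ⟨x, hx, rfl⟩
  have hXUc : ∀ u ∈ D.posUnipotent F, ∀ x ∈ X, u * x * u⁻¹ ∈ X := fun u hu =>
    hconj u (m.U_le_G hu) (Subgroup.le_normalizer hu)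
  have hXH : ∀ b : ℕ → Fˣ, ∀ x ∈ X, m.dmHom (Model.hC D b) * x * (m.dmHom (Model.hC D b))⁻¹ ∈ X := fun b =>
    hconj _ (m.H_le_G (m.hHom_mem b)) (m.H_le_normalizer_U (m.hHom_mem b))
  let J : Set ℕ := {j | j < D.rank ∧ X.map (MulAut.conj (m.n F j)).toMonoidHom = X}
  have hJdef : ∀ j, j ∈ J ↔ j < D.rank ∧ X.map (MulAut.conj (m.n F j)).toMonoidHom = X := fun j => Iff.rfl
  clear_value J
  -- `X ≤ U_J`
  have hXJ : X ≤ m.UL F (LS m J ∅) := by
    obtain ⟨v, hv, hv1, hv2⟩ := exists_longestJ m J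
    obtain ⟨l, hl, hlv⟩ := m.exists_wlJ hv
    have hact := m.acts_nl (F := F) l
    rw [hlv] at hact
    have hXl : ∀ l : List (Fin D.rank), (∀ i ∈ l, (i : ℕ) ∈ J) → ∀ x ∈ X, m.nl F l * x * (m.nl F l)⁻¹ ∈ X := by
      intro l
      induction l with
      | nil => intro _ x hx; simpa [Model.nl] using hx
      | cons a l ih =>
        intro h x hx
        have h1 := ih (fun b hb => h b (List.mem_cons_of_mem _ hb)) x hx
        have h2 := ((hJdef a).1 (h a List.mem_cons_self)).2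
        have h3 : m.n F a * (m.nl F l * x * (m.nl F l)⁻¹) * (m.n F a)⁻¹ ∈ X := by
          have : m.n F a * (m.nl F l * x * (m.nl F l)⁻¹) * (m.n F a)⁻¹ ∈ X.map (MulAut.conj (m.n F a)).toMonoidHom :=
            ⟨_, h1, rfl⟩
          rwa [h2] at this
        rw [Model.nl_cons]
        convert h3 using 1
        group
    intro x hx
    have hxU := hXU hx
    rw [m.pos_eq_UL] at hxU
    obtain ⟨a, ha, b, hb, rfl⟩ := m.good_pos.split (R₁ := fun r => ¬ D.InRootSub J r) (R₂ := fun r => D.InRootSub J r)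
      (fun r _ => (em _).symm) hxU
    have h1 : m.nl F l * a * (m.nl F l)⁻¹ ∈ m.gen F (fun r => m.N ≤ r) :=
      m.map_gen_acts hact (R' := fun r => m.N ≤ r) (fun r hr => hv2 r (m.good_pos.pos r hr.1).1 hr.2) ⟨a, ha, rfl⟩
    have h2 : m.nl F l * b * (m.nl F l)⁻¹ ∈ m.gen F (fun r => r < m.N) :=
      m.map_gen_acts hact (R' := fun r => r < m.N) (fun r hr => hv1 r (m.good_pos.pos r hr.1).1 hr.2) ⟨b, hb, rfl⟩
    have h3 := hXU (hXl l hl _ hx)
    rw [← m.posUnipotent_eq] at h1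
    rw [← m.negUnipotent_eq] at h2
    have h4 : m.nl F l * b * (m.nl F l)⁻¹ = (m.nl F l * a * (m.nl F l)⁻¹)⁻¹ * (m.nl F l * (a * b) * (m.nl F l)⁻¹) := by
      group
    have h5 : m.nl F l * b * (m.nl F l)⁻¹ ∈ D.borelSubgroup F ⊓ D.negUnipotent F :=
      Subgroup.mem_inf.2 ⟨Model.U_le_B (by rw [h4]; exact mul_mem (inv_mem h1) h3), h2⟩
    rw [m.B_inf_V, Subgroup.mem_bot, mul_inv_eq_one, mul_eq_left] at h5
    subst h5
    rw [mul_one]
    refine m.gen_mono (fun r _ hr => ?_) ha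
    rw [mem_LS]
    exact ⟨m.good_pos.pos r hr.1, hr.2, by simp⟩
  -- coefficients
  have hCf0 : ∀ j : Fin D.rank, (j : ℕ) ∈ J → ∀ x ∈ X, Cf m j x 0 := by
    intro j hj x hx
    apply Cf_Up
    refine m.gen_mono (fun r _ hr => ?_) (hXJ hx)
    rw [mem_LS] at hr
    refine ⟨hr.1.1, ?_⟩
    rintro rfl
    exact hr.2.1 (m.inRootSub_simple hj j.2)
  have hlead : ∀ i : Fin D.rank, (i : ℕ) ∉ J → ∃ x ∈ X, ∃ t : F, t ≠ 0 ∧ Cf m i x t := by
    intro i hi
    by_contra hc
    push Not at hc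
    apply hi
    rw [hJdef]
    refine ⟨i.2, hwc _ (m.nn_mem_group (D.simple i) (1 : F)) ?_⟩
    have h1 : X ≤ m.Up F i := by
      intro x hx
      obtain ⟨t, ht⟩ := exists_Cf (m := m) (F := F) (y := x) i (by rw [← m.posUnipotent_eq]; exact hXU hx)
      have h2 : t = 0 := by
        by_contra hne
        exact hc x hx t hne ht
      subst h2
      exact ht.mem
    refine (Subgroup.map_mono h1).trans ?_
    rw [m.n_map_Up]
    exact m.Up_le_U i
  -- separation
  have hsep : ∀ i : Fin D.rank, (i : ℕ) ∉ J → ∀ S : Finset (Fin D.rank), i ∉ S →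
      ∃ x ∈ X, (∃ t : F, t ≠ 0 ∧ Cf m i x t) ∧ ∀ j ∈ S, Cf m j x 0 := by
    intro i hi S
    induction S using Finset.induction_on with
    | empty =>
      intro _
      obtain ⟨x, hx, t, ht, h⟩ := hlead i hi
      exact ⟨x, hx, ⟨t, ht, h⟩, by simp⟩
    | insert j S hj ih =>
      intro hiS
      rw [Finset.mem_insert, not_or] at hiS
      obtain ⟨x, hx, ⟨t, ht, h1⟩, h2⟩ := ih hiS.2
      obtain ⟨b, hb1, hb2⟩ := hS i j hiS.1
      refine ⟨m.dmHom (Model.hC D b) * x * (m.dmHom (Model.hC D b))⁻¹ * x⁻¹, mul_mem (hXH b x hx) (inv_mem hx),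
        ⟨_, ?_, (h1.dm _).mul h1.inv⟩, ?_⟩
      · have h3 : ((m.chi (Model.hC D b) (m.p i) : Fˣ) : F) - 1 ≠ 0 := by
          intro h
          apply hb2
          exact Units.ext (by rw [Units.val_one]; linear_combination h)
        have h4 := mul_ne_zero h3 ht
        intro h
        apply h4
        linear_combination h
      · intro k hk
        rw [Finset.mem_insert] at hk
        rcases hk with rfl | hk
        · obtain ⟨s, hs⟩ := exists_Cf (m := m) (F := F) (y := x) k (by rw [← m.posUnipotent_eq]; exact hXU hx)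
          have h3 := (hs.dm (Model.hC D b)).mul hs.inv
          rw [hb1, Units.val_one, one_mul, add_neg_cancel] at h3
          exact h3
        · have h3 := ((h2 k hk).dm (Model.hC D b)).mul (h2 k hk).inv
          rw [mul_zero, neg_zero, add_zero] at h3
          exact h3
  -- the commutator subgroup
  set UJ : Subgroup (GL D.Idx F) := m.UL F (LS m J ∅) with hUJ
  set K : Subgroup (GL D.Idx F) := ⁅UJ, D.posUnipotent F⁆ with hK
  have hUJU : UJ ≤ D.posUnipotent F := by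
    rw [m.posUnipotent_eq]
    exact m.gen_mono fun r _ hr => ((mem_LS m).1 hr).1.1
  have hX_UJ : ∀ r, m.N ≤ r → r < D.nroots → ¬ D.InRootSub J r → ∀ t : F, m.X r t ∈ UJ := by
    intro r h1 h2 h3 t
    exact m.X_mem_gen (R := fun r => r ∈ LS m J ∅) ((mem_LS m).2 ⟨⟨h1, h2⟩, h3, by simp⟩) t
  have hns : ∀ r, m.N ≤ r → r < D.nroots → (∀ i < D.rank, r ≠ D.simple i) → ¬ D.InRootSub J r →
      ∀ t : F, m.X r t ∈ K := by
    apply hNS J K
    intro a b haN hbN ha hb hab hnot t u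
    have hneg : b ≠ D.neg a := by
      intro h
      have := (m.neg_lt_iff ha).2 haN
      omega
    have h1 := m.X_comm_formula (F := F) ha hb hab hneg t u
    have h2 : m.word (D.commWord F a b t u) = ⁅(m.X b u)⁻¹, (m.X a t)⁻¹⁆ := by
      rw [commutatorElement_def, inv_inv, inv_inv]
      have h3 : m.word (D.commWord F a b t u) = (m.X a t * m.X b u)⁻¹ * (m.X b u * m.X a t) := by
        rw [h1]; group
      rw [h3]; group
    rw [h2]
    have hcase : ¬ D.InRootSub J a ∨ ¬ D.InRootSub J b := by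
      by_contra hc
      push Not at hc
      exact hnot hc
    rcases hcase with h | h
    · rw [hK, Subgroup.commutator_comm]
      exact Subgroup.commutator_mem_commutator (inv_mem (m.X_mem_pos hbN u)) (inv_mem (hX_UJ a haN ha h t))
    · exact Subgroup.commutator_mem_commutator (inv_mem (hX_UJ b hbN hb h u)) (inv_mem (m.X_mem_pos haN t))
  -- the fundamental root groups
  have hXKH : ∀ b : ℕ → Fˣ, ∀ z ∈ X ⊔ K, m.dmHom (Model.hC D b) * z * (m.dmHom (Model.hC D b))⁻¹ ∈ X ⊔ K := by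
    intro b z hz
    have h1 : (X ⊔ K).map (MulAut.conj (m.dmHom (Model.hC D b))).toMonoidHom ≤ X ⊔ K := by
      rw [Subgroup.map_sup, hK, Subgroup.map_commutator]
      apply sup_le_sup
      · rintro _ ⟨x, hx, rfl⟩
        exact hXH b x hx
      · apply Subgroup.commutator_mono
        · rintro _ ⟨x, hx, rfl⟩
          exact (Subgroup.mem_normalizer_iff.1 (m.dm_norm (F := F) (Model.hC D b) (fun r => r ∈ LS m J ∅)) x).1 hx
        · rintro _ ⟨x, hx, rfl⟩
          exact (Subgroup.mem_normalizer_iff.1 (m.H_le_normalizer_U (m.hHom_mem b)) x).1 hx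
    exact h1 ⟨z, hz, rfl⟩
  have hsimple : ∀ i : Fin D.rank, (i : ℕ) ∉ J → ∀ t : F, m.X (m.p i) t ∈ X ⊔ K := by
    intro i hi
    let L : AddSubgroup F :=
      { carrier := {t | m.X (m.p i) t ∈ X ⊔ K}
        zero_mem' := by
          change m.X (m.p i) 0 ∈ X ⊔ K
          rw [m.X_zero]; exact one_mem _
        add_mem' := fun {a b} ha hb => by
          change m.X (m.p i) (a + b) ∈ X ⊔ K
          rw [m.X_add]; exact mul_mem ha hb
        neg_mem' := fun {a} ha => by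
          change m.X (m.p i) (-a) ∈ X ⊔ K
          rw [m.X_neg]; exact inv_mem ha }
    have hL1 : L ≠ ⊥ := by
      obtain ⟨x, hx, ⟨t, ht, h1⟩, h2⟩ := hsep i hi (Finset.univ.erase i) (Finset.notMem_erase i _)
      obtain ⟨b, hb, hxb⟩ := exists_lead m (hXJ hx) h1
        (fun j hj => h2 j (Finset.mem_erase.2 ⟨hj, Finset.mem_univ j⟩))
      have hbK : b ∈ K := by
        refine (m.gen_le fun r hr hR t => ?_) hb
        exact hns r hR.1.1 hr (fun k hk h => hR.2.2 ⟨k, hk⟩ h) hR.2.1 t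
      have h3 : t ∈ L := by
        change m.X (m.p i) t ∈ X ⊔ K
        have h4 : m.X (m.p i) t = x * b⁻¹ := by rw [hxb]; group
        rw [h4]
        exact mul_mem (Subgroup.mem_sup_left hx) (inv_mem (Subgroup.mem_sup_right hbK))
      intro h
      rw [h] at h3
      exact ht ((AddSubgroup.mem_bot).1 h3)
    have hL2 := hFull i L hL1 (by
      intro b t ht
      change m.X (m.p i) _ ∈ X ⊔ K
      have h1 := m.dm_X (F := F) (Model.hC D b) (m.p i) t
      have h2 : m.X (m.p i) (((m.chi (Model.hC D b) (m.p i) : Fˣ) : F) * t) =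
          m.dmHom (Model.hC D b) * m.X (m.p i) t * (m.dmHom (Model.hC D b))⁻¹ := by rw [h1]; group
      rw [h2]
      exact hXKH b _ ht)
    intro t
    have : t ∈ L := by rw [hL2]; exact AddSubgroup.mem_top t
    exact this
  have hUJ_le : UJ ≤ X ⊔ K := by
    refine m.gen_le fun r hr hR t => ?_
    rw [mem_LS] at hR
    by_cases hs : ∃ i < D.rank, r = D.simple i
    · obtain ⟨i, hi, rfl⟩ := hs
      refine hsimple ⟨i, hi⟩ (fun h => hR.2.1 (m.inRootSub_simple h hi)) t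
    · push Not at hs
      exact Subgroup.mem_sup_right (hns r hR.1.1 hr hs hR.2.1 t)
  -- nilpotency
  have hfin : UJ ≤ X := by
    have := m.pos_nilpotent (F := F)
    set P := D.posUnipotent F with hP
    have : (X.subgroupOf P).Normal := ⟨fun n hn g => hXUc g g.2 n hn⟩
    have hKP : K ≤ P := by
      rw [hK]
      exact (Subgroup.commutator_mono hUJU le_rfl).trans (Subgroup.commutator_le_self P)
    have h1 : UJ.subgroupOf P ≤ X.subgroupOf P ⊔ ⁅UJ.subgroupOf P, (⊤ : Subgroup P)⁆ := by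
      have e1 : ⁅UJ.subgroupOf P, (⊤ : Subgroup P)⁆ = K.subgroupOf P := by
        apply Subgroup.map_injective P.subtype_injective
        rw [Subgroup.map_commutator, Subgroup.subgroupOf_map_subtype, Subgroup.subgroupOf_map_subtype,
          inf_eq_left.2 hUJU, inf_eq_left.2 hKP, ← MonoidHom.range_eq_map, Subgroup.range_subtype]
      rw [e1, ← Subgroup.subgroupOf_sup hXU hKP]
      exact Subgroup.comap_mono hUJ_le
    have h2 := le_of_le_sup_commutator h1
    intro x hx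
    exact h2 (show (⟨x, hUJU hx⟩ : P) ∈ UJ.subgroupOf P from hx)
  refine ⟨J, fun j hj => ((hJdef j).1 hj).1, ?_⟩
  rw [m.unipotentRadical_eq]
  apply le_antisymm
  · intro x hx
    exact m.gen_mono (fun r _ hr => ⟨((mem_LS m).1 hr).1.1, ((mem_LS m).1 hr).2.1⟩) (hXJ hx)
  · refine le_trans (m.gen_mono fun r hr hR => ?_) hfin
    exact (mem_LS m).2 ⟨⟨hR.1, hr⟩, hR.2, by simp⟩

end

end Cfsg.Agent.H14.Chev
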