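import Mathlib
import Cfsg.Agent.H14_WcB

set_option autoImplicit false
set_option linter.unusedSectionVars false
set_option maxRecDepth 100000

/-!
Weakly closed unipotent subgroups: type G2 and the theorem.
-/

namespace Cfsg.Agent.H14.Chev

open Cfsg Cfsg.Lie Cfsg.Lie.ChevalleyDatum Cfsg.Agent.H6 Cfsg.Agent.H6.Chev Cfsg.Agent.H6.Chev.Model

theorem sepG2 (F : Type*) [Field F] (ha : ∃ a : Fˣ, a ≠ 1) : Sep modelG2 F :=
  sep_sound baseG2 checksG2 modelG2 (e := false) (L := [[[0, 0], [-2, -3]], [[-1, -2], [0, 0]]]) (by decide +kernel)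
    (by obtain ⟨a, h⟩ := ha; exact ⟨a, h, by simp⟩)

theorem fullG2 (F : Type*) [Field F] [Finite F] : Full modelG2 F :=
  full_sound baseG2 checksG2 modelG2 (e := false) (L := [[0, 1], [1, 1]]) (by decide +kernel)

theorem g2_cm1 : chevG2.commTerms 7 6 = [(8, -1, 1, 1), (9, 1, 2, 1), (10, 1, 3, 1), (11, 1, 3, 2)] :=
  (Tab.commTerms_eq baseG2 checksG2 (by decide +kernel) (by decide +kernel)).trans (by decide +kernel)

theorem g2_cm2 : chevG2.commTerms 6 10 = [(11, 1, 1, 1)] :=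
  (Tab.commTerms_eq baseG2 checksG2 (by decide +kernel) (by decide +kernel)).trans (by decide +kernel)

theorem g2_cm3 : chevG2.commTerms 9 10 = [] :=
  (Tab.commTerms_eq baseG2 checksG2 (by decide +kernel) (by decide +kernel)).trans (by decide +kernel)

theorem g2_cor {r i : ℕ} (hr : r < 12) (hi : i < 2) : cor chevG2 r i = tabG2.o r i := baseG2.cor_eq hr hi

theorem nsG2 (F : Type*) [Field F] (hF : ∃ s : F, s ≠ 0 ∧ s ^ 2 ≠ 1) : NSp modelG2 F := by
  set m : Model chevG2 := modelG2 with hm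
  have hN : m.N = 6 := rfl
  have hn : chevG2.nroots = 12 := baseG2.nroots
  have hrank : chevG2.rank = 2 := baseG2.rank
  intro J K hK r hrN hr hns hrJ τ
  obtain ⟨s, hs0, hs2⟩ := hF
  have hs1 : s ≠ 1 := fun h => hs2 (by rw [h, one_pow])
  have hs1' : s - 1 ≠ 0 := sub_ne_zero.2 hs1
  have hs2' : s ^ 2 - 1 ≠ 0 := sub_ne_zero.2 hs2
  -- `J` is proper
  have hJ : ∀ a b : ℕ, a < 12 → b < 12 → (tabG2.o a 0 ≠ 0 ∨ tabG2.o b 0 ≠ 0) → (tabG2.o a 1 ≠ 0 ∨ tabG2.o b 1 ≠ 0) →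
      ¬ (chevG2.InRootSub J a ∧ chevG2.InRootSub J b) := by
    rintro a b ha hb h0 h1 ⟨hJa, hJb⟩
    rw [Model.inRootSub_iff] at hJa hJb
    have j0 : 0 ∈ J := by
      by_contra hc
      have e1 := hJa.2 0 (by rw [hrank]; norm_num) hc
      have e2 := hJb.2 0 (by rw [hrank]; norm_num) hc
      rw [g2_cor ha (by norm_num)] at e1
      rw [g2_cor hb (by norm_num)] at e2
      rcases h0 with h | h
      · exact h e1
      · exact h e2
    have j1 : 1 ∈ J := by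
      by_contra hc
      have e1 := hJa.2 1 (by rw [hrank]; norm_num) hc
      have e2 := hJb.2 1 (by rw [hrank]; norm_num) hc
      rw [g2_cor ha (by norm_num)] at e1
      rw [g2_cor hb (by norm_num)] at e2
      rcases h1 with h | h
      · exact h e1
      · exact h e2
    apply hrJ
    rw [Model.inRootSub_iff]
    refine ⟨hr, fun i hi hiJ => ?_⟩
    rw [hrank] at hi
    interval_cases i
    · exact absurd j0 hiJ
    · exact absurd j1 hiJ
  have k11 : ∀ τ : F, m.X 11 τ ∈ K := by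
    intro τ
    have h1 := hK 6 10 (by omega) (by omega) (by omega) (by omega) (by norm_num)
      (hJ 6 10 (by norm_num) (by norm_num) (by decide +kernel) (by decide +kernel)) (-τ) 1
    unfold ChevalleyDatum.commWord at h1
    rw [g2_cm2] at h1
    simpa [Model.word] using h1
  have k1 : ∀ t u : F, m.X 8 (t * u) * m.X 9 (t ^ 2 * u) * m.X 10 (-(t ^ 3 * u)) ∈ K := by
    intro t u
    have h1 := hK 7 6 (by omega) (by omega) (by omega) (by omega) (by norm_num)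
      (hJ 7 6 (by norm_num) (by norm_num) (by decide +kernel) (by decide +kernel)) t u
    unfold ChevalleyDatum.commWord at h1
    rw [g2_cm1] at h1
    simp only [List.map_cons, List.map_nil, Model.word, List.prod_cons, List.prod_nil, mul_one, pow_one] at h1
    have h2 := mul_mem h1 (inv_mem (k11 (((1 : ℤ) : F) * (-t) ^ 3 * u ^ 2)))
    convert h2 using 1
    have e8 : ((-1 : ℤ) : F) * -t * u = t * u := by push_cast; ring
    have e9 : ((1 : ℤ) : F) * (-t) ^ 2 * u = t ^ 2 * u := by push_cast; ring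
    have e10 : ((1 : ℤ) : F) * (-t) ^ 3 * u = -(t ^ 3 * u) := by push_cast; ring
    rw [e8, e9, e10]
    group
  have hcomm : ∀ t u : F, m.X 10 u * m.X 9 t = m.X 9 t * m.X 10 u := by
    intro t u
    have h1 := m.X_comm_formula (F := F) (r := 9) (s := 10) (by omega) (by omega) (by norm_num) (by
      rw [m.neg_eq 9 (by omega), hn]; norm_num) t u
    unfold ChevalleyDatum.commWord at h1
    rw [g2_cm3] at h1
    simpa [Model.word] using h1
  have k2 : ∀ t u : F, m.X 9 ((s - 1) * (t ^ 2 * u)) * m.X 10 (-((s ^ 2 - 1) * (t ^ 3 * u))) ∈ K := by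
    intro t u
    have h1 := k1 t u
    have h2 := k1 (s * t) (u / s)
    have e1 : s * t * (u / s) = t * u := by field_simp
    rw [e1] at h2
    have h3 := mul_mem (inv_mem h1) h2
    convert h3 using 1
    have e2 : (s - 1) * (t ^ 2 * u) = -(t ^ 2 * u) + (s * t) ^ 2 * (u / s) := by field_simp; ring
    have e3 : -((s ^ 2 - 1) * (t ^ 3 * u)) = - (-(t ^ 3 * u)) + -((s * t) ^ 3 * (u / s)) := by field_simp; ring
    rw [e2, e3, m.X_add, m.X_add, m.X_neg, m.X_neg 10 (-(t ^ 3 * u))]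
    have h4 := hcomm ((s * t) ^ 2 * (u / s)) (-(t ^ 3 * u))
    have h5 : (m.X 10 (-(t ^ 3 * u)))⁻¹ * m.X 9 ((s * t) ^ 2 * (u / s)) =
        m.X 9 ((s * t) ^ 2 * (u / s)) * (m.X 10 (-(t ^ 3 * u)))⁻¹ := by
      rw [inv_mul_eq_iff_eq_mul, ← mul_assoc, h4]; group
    have h6 := hcomm (t ^ 2 * u) (-(t ^ 3 * u))
    have h7 : (m.X 8 (t * u) * m.X 9 (t ^ 2 * u) * m.X 10 (-(t ^ 3 * u)))⁻¹ =
        (m.X 10 (-(t ^ 3 * u)))⁻¹ * (m.X 9 (t ^ 2 * u))⁻¹ * (m.X 8 (t * u))⁻¹ := by group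
    have h8 : (m.X 10 (-(t ^ 3 * u)))⁻¹ * (m.X 9 (t ^ 2 * u))⁻¹ = (m.X 9 (t ^ 2 * u))⁻¹ * (m.X 10 (-(t ^ 3 * u)))⁻¹ := by
      rw [← mul_inv_rev, ← mul_inv_rev, h6]
    rw [h7, h8]
    calc (m.X 9 (t ^ 2 * u))⁻¹ * m.X 9 ((s * t) ^ 2 * (u / s)) * ((m.X 10 (-(t ^ 3 * u)))⁻¹ *
          m.X 10 (-((s * t) ^ 3 * (u / s))))
        = (m.X 9 (t ^ 2 * u))⁻¹ * (m.X 9 ((s * t) ^ 2 * (u / s)) * (m.X 10 (-(t ^ 3 * u)))⁻¹) *
          m.X 10 (-((s * t) ^ 3 * (u / s))) := by group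
      _ = (m.X 9 (t ^ 2 * u))⁻¹ * ((m.X 10 (-(t ^ 3 * u)))⁻¹ * m.X 9 ((s * t) ^ 2 * (u / s))) *
          m.X 10 (-((s * t) ^ 3 * (u / s))) := by rw [h5]
      _ = _ := by group
  have k10 : ∀ τ : F, m.X 10 τ ∈ K := by
    intro τ
    set v : F := -τ / ((s ^ 2 - 1) * (s - 1)) with hv
    have h1 := k2 1 v
    have h2 := k2 s (v / s ^ 2)
    have e1 : (s - 1) * (s ^ 2 * (v / s ^ 2)) = (s - 1) * (1 ^ 2 * v) := by field_simp
    rw [e1] at h2
    have h3 := mul_mem (inv_mem h1) h2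
    convert h3 using 1
    have e2 : τ = -(-((s ^ 2 - 1) * (1 ^ 3 * v))) + -((s ^ 2 - 1) * (s ^ 3 * (v / s ^ 2))) := by
      rw [hv]; field_simp; ring
    conv_lhs => rw [e2, m.X_add, m.X_neg 10 (-((s ^ 2 - 1) * (1 ^ 3 * v)))]
    group
  have k9 : ∀ τ : F, m.X 9 τ ∈ K := by
    intro τ
    have h1 := mul_mem (k2 1 (τ / (s - 1))) (inv_mem (k10 (-((s ^ 2 - 1) * (1 ^ 3 * (τ / (s - 1)))))))
    rw [mul_inv_cancel_right] at h1
    convert h1 using 2
    field_simp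
  have k8 : ∀ τ : F, m.X 8 τ ∈ K := by
    intro τ
    have h1 := mul_mem (mul_mem (k1 1 τ) (inv_mem (k10 (-(1 ^ 3 * τ))))) (inv_mem (k9 (1 ^ 2 * τ)))
    rw [mul_inv_cancel_right, mul_inv_cancel_right, one_mul] at h1
    exact h1
  have e6 : chevG2.simple 1 = 6 := (baseG2.simple_eq (by decide +kernel)).trans (by decide +kernel)
  have e7 : chevG2.simple 0 = 7 := (baseG2.simple_eq (by decide +kernel)).trans (by decide +kernel)
  rw [hn] at hr
  rw [hN] at hrN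
  interval_cases r
  · exact absurd e6.symm (hns 1 (by rw [hrank]; norm_num))
  · exact absurd e7.symm (hns 0 (by rw [hrank]; norm_num))
  · exact k8 τ
  · exact k9 τ
  · exact k10 τ
  · exact k11 τ

theorem exists_unit_ne_one {F : Type*} [Field F] [Fintype F] (h2 : Fintype.card F ≠ 2) : ∃ a : Fˣ, a ≠ 1 := by
  classical
  by_contra hc
  push Not at hc
  have h1 : Fintype.card Fˣ = 1 := Fintype.card_eq_one_iff.2 ⟨1, hc⟩
  rw [Fintype.card_units] at h1
  omega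

theorem exists_unit_sq_ne_one {F : Type*} [Field F] [Fintype F] (h2 : Fintype.card F ≠ 2) (h3 : Fintype.card F ≠ 3) :
    ∃ a : Fˣ, a ^ 2 ≠ 1 := by
  classical
  by_contra hc
  push Not at hc
  have h1 : (Finset.univ : Finset F) ⊆ {0, 1, -1} := by
    intro x _
    by_cases hx : x = 0
    · simp [hx]
    · have h4 := congrArg Units.val (hc (Units.mk0 x hx))
      rw [Units.val_pow_eq_pow_val, Units.val_mk0, Units.val_one] at h4
      have h5 : (x - 1) * (x + 1) = 0 := by linear_combination h4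
      rcases mul_eq_zero.1 h5 with h6 | h6
      · have h7 : x = 1 := sub_eq_zero.1 h6
        simp [h7]
      · have h7 : x = -1 := eq_neg_of_add_eq_zero_left h6
        simp [h7]
  have h5 := Finset.card_le_card h1
  rw [Finset.card_univ] at h5
  have h6 : ({0, 1, -1} : Finset F).card ≤ 3 := Finset.card_le_three
  have h7 := Fintype.one_lt_card (α := F)
  omega

theorem s2244 {F : Type*} [Field F] [Fintype F] (D : Cfsg.Lie.ChevalleyDatum) (hD : D ∈ [Cfsg.Lie.chevG2, Cfsg.Lie.chevB2, Cfsg.Lie.chevD4, Cfsg.Lie.chevF4, Cfsg.Lie.chevE6, Cfsg.Lie.chevE7, Cfsg.Lie.chevE8])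
    (h2 : Fintype.card F ≠ 2) (h3 : D ∈ [Cfsg.Lie.chevG2, Cfsg.Lie.chevB2, Cfsg.Lie.chevD4, Cfsg.Lie.chevF4] → Fintype.card F ≠ 3)
    (X : Subgroup (GL D.Idx F)) (hXU : X ≤ D.posUnipotent F)
    (hwc : ∀ g ∈ D.group F, X.map (MulAut.conj g).toMonoidHom ≤ D.posUnipotent F → X.map (MulAut.conj g).toMonoidHom = X) :
    ∃ J : Set ℕ, (∀ j ∈ J, j < D.rank) ∧ X = D.unipotentRadical F J := by
  have ha : ∃ a : Fˣ, a ≠ 1 := exists_unit_ne_one h2
  have hs : ∃ s : F, s ≠ 0 ∧ s ≠ 1 := by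
    obtain ⟨a, ha⟩ := ha
    exact ⟨a, a.ne_zero, fun h => ha (Units.ext h)⟩
  have haf : ∃ a : Fˣ, a ≠ 1 ∧ (false = true → a ^ (2 : ℤ) ≠ 1) := by
    obtain ⟨a, ha⟩ := ha
    exact ⟨a, ha, by simp⟩
  have hat : Fintype.card F ≠ 3 → ∃ a : Fˣ, a ≠ 1 ∧ (true = true → a ^ (2 : ℤ) ≠ 1) := by
    intro h
    obtain ⟨a, ha⟩ := exists_unit_sq_ne_one h2 h
    refine ⟨a, fun h => ha (by rw [h, one_pow]), fun _ h => ha ?_⟩
    exact_mod_cast h
  simp only [List.mem_cons, List.not_mem_nil, or_false] at hD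
  rcases hD with rfl | rfl | rfl | rfl | rfl | rfl | rfl
  · refine weakly_closed_of modelG2 (nsG2 F ?_) (sepG2 F ha) (fullG2 F) X hXU hwc
    obtain ⟨a, ha⟩ := exists_unit_sq_ne_one h2 (h3 (by simp))
    exact ⟨a, a.ne_zero, fun h => ha (Units.ext (by push_cast; exact h))⟩
  · exact weakly_closed_of modelB2 (nsB2 F hs) (sepB2 F (hat (h3 (by simp)))) (fullB2 F) X hXU hwc
  · exact weakly_closed_of modelD4 (nsD4 F hs) (sepD4 F (hat (h3 (by simp)))) (fullD4 F) X hXU hwc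
  · exact weakly_closed_of modelF4 (nsF4 F hs) (sepF4 F haf) (fullF4 F) X hXU hwc
  · exact weakly_closed_of modelE6 (nsE6 F hs) (sepE6 F haf) (fullE6 F) X hXU hwc
  · exact weakly_closed_of modelE7 (nsE7 F hs) (sepE7 F haf) (fullE7 F) X hXU hwc
  · exact weakly_closed_of modelE8 (nsE8 F hs) (sepE8 F haf) (fullE8 F) X hXU hwc

end Cfsg.Agent.H14.Chev
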