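import Mathlib
set_option autoImplicit false
set_option linter.all false

namespace Cfsg.Agent.H15.AA
open Equiv Finset

/-- three times the maximum product -/
def g3 : ℕ → ℕ
  | 0 => 3
  | 1 => 4
  | 2 => 6
  | (n+3) => 3 * g3 n

lemma g3_add (a : ℕ) : g3 (a+3) = 3 * g3 a := rfl

lemma g3_three_mul (k : ℕ) : g3 (3*k) = 3 * 3^k ∧ g3 (3*k+1) = 4 * 3^k ∧ g3 (3*k+2) = 6 * 3^k := by
  induction k with
  | zero => simp [g3]
  | succ k ih =>
    have e1 : 3*(k+1) = 3*k+3 := by ring
    have e2 : 3*(k+1)+1 = (3*k+1)+3 := by ring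
    have e3 : 3*(k+1)+2 = (3*k+2)+3 := by ring
    rw [e3, e2, e1, g3_add, g3_add, g3_add, ih.1, ih.2.1, ih.2.2, pow_succ]
    refine ⟨by ring, by ring, by ring⟩

lemma g3_base (a : ℕ) (b : ℕ) (hb1 : 1 ≤ b) (hb4 : b ≤ 4) : b * g3 a ≤ g3 (a + b) := by
  induction a using Nat.strong_induction_on with
  | _ a ih =>
    rcases Nat.lt_or_ge a 3 with h | h
    · interval_cases a <;> interval_cases b <;> simp [g3]
    · obtain ⟨c, rfl⟩ := Nat.exists_eq_add_of_le' h
      have := ih c (by omega)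
      have e : c + 3 + b = (c + b) + 3 := by ring
      rw [e, g3_add, g3_add]
      nlinarith

lemma g3_mul (a b : ℕ) (hb1 : 1 ≤ b) : b * g3 a ≤ g3 (a + b) := by
  induction b using Nat.strong_induction_on with
  | _ b ih =>
    rcases Nat.lt_or_ge b 5 with h | h
    · exact g3_base a b hb1 (by omega)
    · obtain ⟨c, rfl⟩ := Nat.exists_eq_add_of_le' (show 3 ≤ b by omega)
      have := ih c (by omega) (by omega)
      rw [← add_assoc, g3_add]
      have : (c + 3) * g3 a ≤ 3 * (c * g3 a) := by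
        have : c + 3 ≤ 3 * c := by omega
        calc (c+3) * g3 a ≤ (3 * c) * g3 a := Nat.mul_le_mul_right _ this
          _ = _ := by ring
      omega

lemma prod_le {ι : Type*} (s : Finset ι) (f : ι → ℕ) (hf : ∀ i ∈ s, 1 ≤ f i) : 3 * ∏ i ∈ s, f i ≤ g3 (∑ i ∈ s, f i) := by
  classical
  induction s using Finset.induction_on with
  | empty => simp [g3]
  | insert i s hi ih =>
    rw [Finset.prod_insert hi, Finset.sum_insert hi]
    have h1 := ih (fun j hj => hf j (Finset.mem_insert_of_mem hj))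
    have h2 := g3_mul (∑ i ∈ s, f i) (f i) (hf i (Finset.mem_insert_self _ _))
    rw [add_comm]
    calc 3 * (f i * ∏ i ∈ s, f i) = f i * (3 * ∏ i ∈ s, f i) := by ring
      _ ≤ f i * g3 (∑ i ∈ s, f i) := Nat.mul_le_mul_left _ h1
      _ ≤ _ := h2

/-- strict version -/
lemma g3_strict (a b : ℕ) (hb1 : 1 ≤ b) (h2 : b ≠ 2) (h3 : b ≠ 3) (hab : (a + b) % 3 = 2) : 9 * (b * g3 a) ≤ 8 * g3 (a + b) := by
  induction b using Nat.strong_induction_on with
  | _ b ih =>
    rcases Nat.lt_or_ge b 7 with h | h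
    · have e : a % 3 + 3 * (a / 3) = a := Nat.mod_add_div a 3
      obtain ⟨k, hk⟩ : ∃ k, k = a / 3 := ⟨_, rfl⟩
      rw [← hk] at e
      have hb : b = 1 ∨ b = 4 ∨ b = 5 ∨ b = 6 := by omega
      obtain ⟨m, hm⟩ : ∃ m, a + b = 3 * m + 2 := ⟨(a+b)/3, by omega⟩
      rw [hm, (g3_three_mul m).2.2]
      rcases hb with rfl | rfl | rfl | rfl
      · obtain ⟨j, rfl⟩ : ∃ j, a = 3 * j + 1 := ⟨a/3, by omega⟩
        have : m = j := by omega
        subst this
        rw [(g3_three_mul m).2.1]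
        omega
      · obtain ⟨j, rfl⟩ : ∃ j, a = 3 * j + 1 := ⟨a/3, by omega⟩
        have : m = j + 1 := by omega
        subst this
        rw [(g3_three_mul j).2.1, pow_succ]
        omega
      · obtain ⟨j, rfl⟩ : ∃ j, a = 3 * j := ⟨a/3, by omega⟩
        have : m = j + 1 := by omega
        subst this
        rw [(g3_three_mul j).1, pow_succ]
        omega
      · obtain ⟨j, rfl⟩ : ∃ j, a = 3 * j + 2 := ⟨a/3, by omega⟩
        have : m = j + 2 := by omega
        subst this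
        rw [(g3_three_mul j).2.2, pow_succ, pow_succ]
        omega
    · obtain ⟨c, rfl⟩ := Nat.exists_eq_add_of_le' (show 3 ≤ b by omega)
      have := ih c (by omega) (by omega) (by omega) (by omega) (by omega)
      rw [← add_assoc, g3_add]
      have : (c + 3) * g3 a ≤ 3 * (c * g3 a) := by
        have : c + 3 ≤ 3 * c := by omega
        calc (c+3) * g3 a ≤ (3 * c) * g3 a := Nat.mul_le_mul_right _ this
          _ = _ := by ring
      omega

lemma prod_strict {ι : Type*} (s : Finset ι) (f : ι → ℕ) (hf : ∀ i ∈ s, 1 ≤ f i)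
    (hs : (∑ i ∈ s, f i) % 3 = 2) (hs5 : 5 ≤ ∑ i ∈ s, f i) (h : ¬ ((∀ i ∈ s, f i = 2 ∨ f i = 3) ∧ ∃ i ∈ s, f i = 2 ∧ ∀ j ∈ s, j ≠ i → f j = 3)) :
    9 * (3 * ∏ i ∈ s, f i) ≤ 8 * g3 (∑ i ∈ s, f i) := by
  classical
  by_cases h1 : ∀ i ∈ s, f i = 2 ∨ f i = 3
  · -- two parts equal 2
    have h2 : ∃ i ∈ s, f i = 2 := by
      by_contra h2
      push Not at h2
      have : ∀ i ∈ s, f i = 3 := fun i hi => (h1 i hi).resolve_left (h2 i hi)
      rw [Finset.sum_congr rfl this] at hs
      simp at hs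
    obtain ⟨i, hi, hi2⟩ := h2
    have h3 : ∃ j ∈ s, j ≠ i ∧ f j = 2 := by
      by_contra h3
      push Not at h3
      exact h ⟨h1, i, hi, hi2, fun j hj hji => (h1 j hj).resolve_left (h3 j hj hji)⟩
    obtain ⟨j, hj, hji, hj2⟩ := h3
    have hj' : j ∈ s.erase i := Finset.mem_erase.2 ⟨hji, hj⟩
    rw [← Finset.mul_prod_erase s f hi, ← Finset.mul_prod_erase (s.erase i) f hj', ← Finset.add_sum_erase s f hi,
      ← Finset.add_sum_erase (s.erase i) f hj', hi2, hj2]
    have h4 := prod_le ((s.erase i).erase j) f (fun i hi => hf i (Finset.mem_of_mem_erase (Finset.mem_of_mem_erase hi)))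
    have h5 := g3_strict (∑ x ∈ (s.erase i).erase j, f x) 4 (by norm_num) (by norm_num) (by norm_num) (by
      rw [← Finset.add_sum_erase s f hi,
      ← Finset.add_sum_erase (s.erase i) f hj', hi2, hj2] at hs
      omega)
    rw [show 2 + (2 + ∑ x ∈ (s.erase i).erase j, f x) = ∑ x ∈ (s.erase i).erase j, f x + 4 by ring]
    calc 9 * (3 * (2 * (2 * ∏ x ∈ (s.erase i).erase j, f x))) = 9 * (4 * (3 * ∏ x ∈ (s.erase i).erase j, f x)) := by ring
      _ ≤ 9 * (4 * g3 (∑ x ∈ (s.erase i).erase j, f x)) := by gcongr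
      _ ≤ _ := h5
  · push Not at h1
    obtain ⟨i, hi, hi2, hi3⟩ := h1
    have h4 := prod_le (s.erase i) f (fun i hi => hf i (Finset.mem_of_mem_erase hi))
    have h5 := g3_strict (∑ x ∈ s.erase i, f x) (f i) (hf i hi) hi2 hi3 (by
      rw [← Finset.add_sum_erase s f hi] at hs; omega)
    rw [← Finset.mul_prod_erase s f hi, ← Finset.add_sum_erase s f hi, add_comm (f i)]
    calc 9 * (3 * (f i * ∏ x ∈ s.erase i, f x)) = 9 * (f i * (3 * ∏ x ∈ s.erase i, f x)) := by ring
      _ ≤ 9 * (f i * g3 (∑ x ∈ s.erase i, f x)) := by gcongr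
      _ ≤ _ := h5


section Orb
variable {X : Type*} [Fintype X] [DecidableEq X]

noncomputable local instance (A : Subgroup (Perm X)) : Fintype (MulAction.orbitRel.Quotient A X) := Fintype.ofFinite _

lemma exists_out (A : Subgroup (Perm X)) (x : X) : ∃ ω : MulAction.orbitRel.Quotient A X, x ∈ MulAction.orbit A ω.out := by
  refine ⟨Quotient.mk'' x, ?_⟩
  have := Quotient.mk_out (s := MulAction.orbitRel A X) x
  exact (MulAction.orbitRel A X).symm this

theorem card_le (A : Subgroup (Perm X)) (hA : ∀ a ∈ A, ∀ b ∈ A, a * b = b * a) :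
    Nat.card A ≤ ∏ ω : MulAction.orbitRel.Quotient A X, Nat.card (MulAction.orbit A ω.out) := by
  classical
  have h1 : Function.Injective (fun (a : A) (ω : MulAction.orbitRel.Quotient A X) =>
      (⟨a • ω.out, MulAction.mem_orbit _ _⟩ : MulAction.orbit A ω.out)) := by
    intro a b hab
    ext x
    obtain ⟨ω, c, hc⟩ := exists_out A x
    have h3 := congrArg Subtype.val (congrFun hab ω)
    simp only at h3 hc
    have h4 : ∀ d : A, d * c = c * d := fun d => Subtype.ext (hA _ d.2 _ c.2)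
    have h5 : a • x = b • x := by
      rw [← hc, ← mul_smul, ← mul_smul, h4 a, h4 b, mul_smul, mul_smul, h3]
    exact h5
  calc Nat.card A ≤ Nat.card (∀ ω : MulAction.orbitRel.Quotient A X, MulAction.orbit A ω.out) := Nat.card_le_card_of_injective _ h1
    _ = _ := Nat.card_pi

theorem sum_card (A : Subgroup (Perm X)) :
    ∑ ω : MulAction.orbitRel.Quotient A X, Nat.card (MulAction.orbit A ω.out) = Nat.card X := by
  classical
  rw [← Nat.card_sigma]
  exact (Nat.card_congr (MulAction.selfEquivSigmaOrbits A X)).symm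

theorem pow_fix (A : Subgroup (Perm X)) (hA : ∀ a ∈ A, ∀ b ∈ A, a * b = b * a) (a : Perm X) (ha : a ∈ A) (x : X) :
    (a ^ Nat.card (MulAction.orbit A x)) x = x := by
  haveI : (MulAction.stabilizer A x).Normal := ⟨fun n hn g => by
    have h1 : g * n = n * g := Subtype.ext (hA _ g.2 _ n.2)
    have : g * n * g⁻¹ = n := by
      rw [h1, mul_inv_cancel_right]
    rw [this]; exact hn⟩
  have h := Subgroup.pow_index_mem (MulAction.stabilizer A x) ⟨a, ha⟩
  rw [MulAction.index_stabilizer] at h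
  exact h

theorem bound2 (A : Subgroup (Perm X)) (hA : ∀ a ∈ A, ∀ b ∈ A, a * b = b * a) (hA' : A ≤ alternatingGroup X)
    (k : ℕ) (hk : 1 ≤ k) (hX : Nat.card X = 3 * k + 2) : 9 * Nat.card A ≤ 16 * 3 ^ k := by
  classical
  have h1 := card_le A hA
  have h2 := sum_card A
  have hpos : ∀ ω : MulAction.orbitRel.Quotient A X, 1 ≤ Nat.card (MulAction.orbit A ω.out) := fun ω => by
    haveI : Nonempty (MulAction.orbit A ω.out) := ⟨⟨_, MulAction.mem_orbit_self _⟩⟩
    exact Nat.card_pos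
  by_cases h : ((∀ i ∈ (Finset.univ : Finset (MulAction.orbitRel.Quotient A X)), Nat.card (MulAction.orbit A i.out) = 2 ∨ Nat.card (MulAction.orbit A i.out) = 3) ∧
    ∃ i ∈ (Finset.univ : Finset (MulAction.orbitRel.Quotient A X)), Nat.card (MulAction.orbit A i.out) = 2 ∧ ∀ j ∈ (Finset.univ : Finset (MulAction.orbitRel.Quotient A X)), j ≠ i → Nat.card (MulAction.orbit A j.out) = 3)
  · exfalso
    obtain ⟨-, ω, -, hω2, hω3⟩ := h
    -- every a ∈ A has a^3 = 1
    have h3 : ∀ a ∈ A, a ^ 3 = 1 := by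
      intro a ha
      have hfix : ∀ x : X, x ∉ MulAction.orbit A ω.out → (a ^ 3) x = x := by
        intro x hx
        obtain ⟨ω', hω'⟩ := exists_out A x
        have h4 : ω' ≠ ω := by
          rintro rfl; exact hx hω'
        have h5 := hω3 _ (Finset.mem_univ _) h4
        have h6 := pow_fix A hA a ha x
        have h7 : MulAction.orbit A x = MulAction.orbit A ω'.out := MulAction.orbit_eq_iff.2 hω'
        rw [h7, h5] at h6
        exact h6
      by_contra hne
      have h8 : (a ^ 3).support.card ≤ 2 := by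
        rw [← hω2, Nat.card_eq_fintype_card, ← Set.toFinset_card]
        apply Finset.card_le_card
        intro x hx
        rw [Set.mem_toFinset]
        by_contra hx'
        exact (Perm.mem_support.1 hx) (hfix x hx')
      have h9 : (a ^ 3).support.card = 2 := le_antisymm h8 (Perm.two_le_card_support_of_ne_one hne)
      have h10 : (a^3).IsSwap := Perm.card_support_eq_two.1 h9
      have h11 : Perm.sign (a^3) = -1 := h10.sign_eq
      have h12 : Perm.sign (a^3) = 1 := by
        rw [← Perm.mem_alternatingGroup]; exact hA' (A.pow_mem ha 3)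
      rw [h12] at h11
      exact absurd h11 (by decide)
    have h8 : ∀ a ∈ A, a ω.out = ω.out := by
      intro a ha
      have := pow_fix A hA a ha ω.out
      rw [hω2] at this
      have h9 : (a ^ 3) ω.out = a ((a ^ 2) ω.out) := by rw [pow_succ']; rfl
      rw [h3 a ha, this] at h9
      exact h9.symm
    have h9 : MulAction.orbit A ω.out = {ω.out} := by
      ext y; simp only [Set.mem_singleton_iff]
      constructor
      · rintro ⟨a, rfl⟩; exact h8 a a.2
      · rintro rfl; exact MulAction.mem_orbit_self _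
    rw [h9] at hω2
    simp at hω2
  · have h3 := prod_strict Finset.univ (fun ω : MulAction.orbitRel.Quotient A X => Nat.card (MulAction.orbit A ω.out)) (fun i _ => hpos i)
      (by rw [h2, hX]; omega) (by rw [h2, hX]; omega) h
    rw [h2, hX, (g3_three_mul k).2.2] at h3
    omega

theorem bound01 (A : Subgroup (Perm X)) (hA : ∀ a ∈ A, ∀ b ∈ A, a * b = b * a) : 3 * Nat.card A ≤ g3 (Nat.card X) := by
  classical
  have h1 := card_le A hA
  have h2 := sum_card A
  have hpos : ∀ ω : MulAction.orbitRel.Quotient A X, 1 ≤ Nat.card (MulAction.orbit A ω.out) := fun ω => by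
    haveI : Nonempty (MulAction.orbit A ω.out) := ⟨⟨_, MulAction.mem_orbit_self _⟩⟩
    exact Nat.card_pos
  have h3 := prod_le Finset.univ (fun ω : MulAction.orbitRel.Quotient A X => Nat.card (MulAction.orbit A ω.out)) (fun i _ => hpos i)
  rw [h2] at h3
  omega

end Orb

/-- existence predicate -/
def P (n c : ℕ) : Prop := ∃ A : Subgroup (Perm (Fin n)), A ≤ alternatingGroup (Fin n) ∧ (∀ a ∈ A, ∀ b ∈ A, a * b = b * a) ∧ Nat.card A = c

theorem P_mul {m n a b : ℕ} (h1 : P m a) (h2 : P n b) : P (m + n) (a * b) := by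
  obtain ⟨A, hA1, hA2, hA3⟩ := h1
  obtain ⟨B, hB1, hB2, hB3⟩ := h2
  let ψ : Perm (Fin m ⊕ Fin n) ≃* Perm (Fin (m+n)) := finSumFinEquiv.permCongrHom
  let φ : Perm (Fin m) × Perm (Fin n) →* Perm (Fin (m + n)) := ψ.toMonoidHom.comp (Perm.sumCongrHom (Fin m) (Fin n))
  have hφ : Function.Injective φ := by
    intro x y hxy
    exact Perm.sumCongrHom_injective (ψ.injective hxy)
  refine ⟨(A.prod B).map φ, ?_, ?_, ?_⟩
  · rintro _ ⟨⟨x, y⟩, hxy, rfl⟩
    rw [SetLike.mem_coe, Subgroup.mem_prod] at hxy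
    rw [Perm.mem_alternatingGroup]
    have hx := Perm.mem_alternatingGroup.1 (hA1 hxy.1)
    have hy := Perm.mem_alternatingGroup.1 (hB1 hxy.2)
    change Perm.sign (finSumFinEquiv.permCongr (Perm.sumCongr x y)) = 1
    rw [Perm.sign_permCongr, Perm.sign_sumCongr, hx, hy, one_mul]
  · rintro _ ⟨⟨x, y⟩, hxy, rfl⟩ _ ⟨⟨x', y'⟩, hxy', rfl⟩
    rw [SetLike.mem_coe, Subgroup.mem_prod] at hxy hxy'
    rw [← map_mul, ← map_mul]
    congr 1
    ext1
    · exact hA2 _ hxy.1 _ hxy'.1
    · exact hB2 _ hxy.2 _ hxy'.2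
  · rw [← hA3, ← hB3, ← Nat.card_prod, ← Nat.card_congr (Subgroup.prodEquiv A B).toEquiv]
    exact (Nat.card_congr ((A.prod B).equivMapOfInjective φ hφ).toEquiv).symm

theorem P_zero : P 0 1 := ⟨⊥, bot_le, fun a ha b hb => by
  rw [Subgroup.mem_bot] at ha hb; rw [ha, hb], by simp⟩

theorem P_three : P 3 3 := by
  have hc : Nat.card (alternatingGroup (Fin 3)) = 3 := by
    rw [nat_card_alternatingGroup]; simp [Nat.factorial]
  refine ⟨alternatingGroup (Fin 3), le_rfl, ?_, hc⟩
  intro a ha b hb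
  haveI : Fact (Nat.Prime 3) := ⟨by norm_num⟩
  haveI := isCyclic_of_prime_card hc
  have := (IsCyclic.commutative (α := alternatingGroup (Fin 3))).is_comm.comm ⟨a, ha⟩ ⟨b, hb⟩
  exact congrArg Subtype.val this

theorem P_four : P 4 4 := by
  have hc : Nat.card (alternatingGroup (Fin 4)) = 12 := by
    rw [nat_card_alternatingGroup]; simp [Nat.factorial]
  haveI : Fact (Nat.Prime 2) := ⟨by norm_num⟩
  obtain ⟨S, hS⟩ := Sylow.exists_subgroup_card_pow_prime (G := alternatingGroup (Fin 4)) 2 (n := 2) (by rw [hc]; norm_num)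
  refine ⟨S.map (Subgroup.subtype _), ?_, ?_, ?_⟩
  · rintro _ ⟨x, -, rfl⟩; exact x.2
  · rintro _ ⟨x, hx, rfl⟩ _ ⟨y, hy, rfl⟩
    have := (IsPGroup.isMulCommutative_of_card_eq_prime_sq (p := 2) hS).is_comm.comm ⟨x, hx⟩ ⟨y, hy⟩
    rw [← map_mul, ← map_mul]
    congr 1
    exact congrArg Subtype.val this
  · rw [Subgroup.card_subtype, hS]; rfl

theorem P_pow (k : ℕ) : P (3 * k) (3 ^ k) := by
  induction k with
  | zero => exact P_zero
  | succ k ih => exact P_mul ih P_three


theorem up (n : ℕ) (c : ℕ) (h : P n c) : c ∈ {c : ℕ | ∃ A : Subgroup (alternatingGroup (Fin n)), IsMulCommutative A ∧ Nat.card A = c} := by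
  obtain ⟨A, hA1, hA2, hA3⟩ := h
  refine ⟨A.subgroupOf _, ⟨⟨fun x y => ?_⟩⟩, ?_⟩
  · apply Subtype.ext; apply Subtype.ext
    exact hA2 _ x.2 _ y.2
  · rw [← hA3]
    exact Nat.card_congr (Subgroup.subgroupOfEquivOfLe hA1).toEquiv

theorem down (n : ℕ) (c : ℕ) (h : c ∈ {c : ℕ | ∃ A : Subgroup (alternatingGroup (Fin n)), IsMulCommutative A ∧ Nat.card A = c}) : P n c := by
  obtain ⟨A, hA1, hA2⟩ := h
  refine ⟨A.map (Subgroup.subtype _), ?_, ?_, ?_⟩
  · rintro _ ⟨x, -, rfl⟩; exact x.2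
  · rintro _ ⟨x, hx, rfl⟩ _ ⟨y, hy, rfl⟩
    have := hA1.is_comm.comm ⟨x, hx⟩ ⟨y, hy⟩
    rw [← map_mul, ← map_mul]
    congr 1
    exact congrArg Subtype.val this
  · rw [Subgroup.card_subtype, hA2]

theorem main (k : ℕ) (hk : 2 ≤ k) :
    IsGreatest {c : ℕ | ∃ A : Subgroup (alternatingGroup (Fin (3 * k))), IsMulCommutative A ∧ Nat.card A = c} (3 ^ k) ∧
    IsGreatest {c : ℕ | ∃ A : Subgroup (alternatingGroup (Fin (3 * k + 1))), IsMulCommutative A ∧ Nat.card A = c}
      (4 * 3 ^ (k - 1)) ∧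
    IsGreatest {c : ℕ | ∃ A : Subgroup (alternatingGroup (Fin (3 * k + 2))), IsMulCommutative A ∧ Nat.card A = c}
      (16 * 3 ^ (k - 2)) := by
  obtain ⟨j, rfl⟩ := Nat.exists_eq_add_of_le' hk
  refine ⟨⟨up _ _ (P_pow _), ?_⟩, ⟨up _ _ ?_, ?_⟩, ⟨up _ _ ?_, ?_⟩⟩
  · intro c hc
    obtain ⟨A, -, hA2, rfl⟩ := down _ _ hc
    have := bound01 A hA2
    rw [Nat.card_eq_fintype_card (α := Fin _), Fintype.card_fin, (g3_three_mul _).1] at this
    omega
  · have := P_mul P_four (P_pow (j+1))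
    rw [show 3 * (j + 2) + 1 = 4 + 3 * (j + 1) by ring]
    exact this
  · intro c hc
    obtain ⟨A, -, hA2, rfl⟩ := down _ _ hc
    have := bound01 A hA2
    rw [Nat.card_eq_fintype_card (α := Fin _), Fintype.card_fin, (g3_three_mul _).2.1] at this
    have e : 3 ^ (j + 2) = 3 * 3 ^ (j + 2 - 1) := by
      rw [show j + 2 - 1 = j + 1 by omega]; ring
    rw [e] at this
    omega
  · have := P_mul P_four (P_mul P_four (P_pow j))
    rw [show 3 * (j + 2) + 2 = 4 + (4 + 3 * j) by ring, show j + 2 - 2 = j by omega, show 16 * 3 ^ j = 4 * (4 * 3 ^ j) by ring]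
    exact this
  · intro c hc
    obtain ⟨A, hA1, hA2, rfl⟩ := down _ _ hc
    have := bound2 A hA2 hA1 (j+2) (by omega) (by rw [Nat.card_eq_fintype_card, Fintype.card_fin])
    have e : 3 ^ (j + 2) = 9 * 3 ^ (j + 2 - 2) := by
      rw [show j + 2 - 2 = j by omega]; ring
    rw [e] at this
    omega

end Cfsg.Agent.H15.AA
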