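import Mathlib
import Cfsg.Agent.H15_FM1

set_option autoImplicit false
open Module Polynomial

namespace Cfsg.Agent.H15.FM

open Cfsg.Agent.H15.SS

/-- Hilbert 90 for an involution -/
theorem h90 {K : Type*} [Field K] (τ : K →+* K) (hτ : ∀ x, τ (τ x) = x) (hne : ∃ x, τ x ≠ x) {x : K} (hx : x * τ x = 1) :
    ∃ y, y ≠ 0 ∧ x * τ y = y := by
  obtain ⟨z, hz⟩ : ∃ z, z + x * τ z ≠ 0 := by
    by_contra hcon
    push Not at hcon
    have h1 := hcon 1
    rw [map_one, mul_one] at h1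
    obtain ⟨y, hy⟩ := hne
    apply hy
    have h2 := hcon y
    have h3 : x = -1 := by linear_combination h1
    rw [h3] at h2
    linear_combination -h2
  refine ⟨z + x * τ z, hz, ?_⟩
  rw [map_add, map_mul, hτ]
  linear_combination z * hx

theorem inv_norm {K : Type*} [Field K] [Finite K] (τ : K →+* K) (hτ : ∀ x, τ (τ x) = x) (hne : ∃ x, τ x ≠ x) {c : K} (hc : τ c = c) (hc0 : c ≠ 0) :
    ∃ d, c = τ d * d := by
  classical
  let t : Kˣ →* Kˣ := Units.map (τ : K →* K)
  have ht : ∀ x, t (t x) = x := fun x => Units.ext (hτ x)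
  let N : Kˣ →* Kˣ := MonoidHom.mk' (fun x => x * t x) (fun a b => by rw [map_mul]; exact mul_mul_mul_comm _ _ _ _)
  let D : Kˣ →* Kˣ := MonoidHom.mk' (fun x => x / t x) (fun a b => by rw [map_mul, mul_div_mul_comm])
  let Fx : Subgroup Kˣ := D.ker
  have hFx : ∀ x, x ∈ Fx ↔ t x = x := by
    intro x
    change x / t x = 1 ↔ _
    rw [div_eq_one]
    exact eq_comm
  have h1 : N.ker ≤ D.range := by
    intro x hx
    have hx1 : x * t x = 1 := hx
    obtain ⟨y, hy0, hy⟩ := h90 τ hτ hne (x := (x : K)) (congrArg Units.val hx1)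
    refine ⟨Units.mk0 y hy0, ?_⟩
    change Units.mk0 y hy0 / t (Units.mk0 y hy0) = x
    rw [div_eq_iff_eq_mul]
    apply Units.ext
    exact hy.symm
  have h2 : N.range ≤ Fx := by
    rintro _ ⟨x, rfl⟩
    rw [hFx]
    change t (x * t x) = x * t x
    rw [map_mul, ht, mul_comm]
  have c1 : Nat.card N.ker * Nat.card N.range = Nat.card Kˣ := by
    rw [← Subgroup.index_ker, Subgroup.card_mul_index]
  have c2 : Nat.card Fx * Nat.card D.range = Nat.card Kˣ := by
    rw [← Subgroup.index_ker D, Subgroup.card_mul_index]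
  have c3 : Nat.card N.ker ≤ Nat.card D.range := Subgroup.card_le_of_le h1
  have hposD : 0 < Nat.card D.range := Nat.card_pos
  have c4 : Nat.card Fx ≤ Nat.card N.range := by
    by_contra hlt
    push Not at hlt
    have h5 : Nat.card N.ker * Nat.card N.range < Nat.card Fx * Nat.card D.range := by
      calc Nat.card N.ker * Nat.card N.range ≤ Nat.card D.range * Nat.card N.range := Nat.mul_le_mul_right _ c3
        _ < Nat.card D.range * Nat.card Fx := Nat.mul_lt_mul_of_pos_left hlt hposD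
        _ = Nat.card Fx * Nat.card D.range := mul_comm _ _
    omega
  have h3 : N.range = Fx := Subgroup.eq_of_le_of_card_ge h2 c4
  have h4 : Units.mk0 c hc0 ∈ N.range := by
    rw [h3, hFx]
    apply Units.ext
    exact hc
  obtain ⟨d, hd⟩ := h4
  refine ⟨d, ?_⟩
  have := congrArg Units.val hd
  rw [mul_comm]
  exact this.symm

variable {F : Type*} [Field F] {σ : F →+* F} {ε : F}

/-- functionals on the residue field -/
theorem functional {f : F[X]} (hf : Irreducible f) (φ ψ : F[X] →ₗ[F] F) (hφ : ∀ p, f ∣ p → φ p = 0) (hψ : ∀ p, f ∣ p → ψ p = 0)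
    (hne : ∃ p, φ p ≠ 0) : ∃ c, ∀ p, ψ p = φ (c * p) := by
  haveI : Fact (Irreducible f) := ⟨hf⟩
  haveI : Module.Finite F (AdjoinRoot f) := (AdjoinRoot.powerBasis hf.ne_zero).finite
  have hle : ∀ χ : F[X] →ₗ[F] F, (∀ p, f ∣ p → χ p = 0) → (Ideal.span {f}).restrictScalars F ≤ LinearMap.ker χ := by
    intro χ hχ p hp
    rw [Submodule.restrictScalars_mem, Ideal.mem_span_singleton] at hp
    exact hχ p hp
  let φ' : AdjoinRoot f →ₗ[F] F := Submodule.liftQ ((Ideal.span {f}).restrictScalars F) φ (hle φ hφ)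
  let ψ' : AdjoinRoot f →ₗ[F] F := Submodule.liftQ ((Ideal.span {f}).restrictScalars F) ψ (hle ψ hψ)
  have hφ' : ∀ p, φ' (AdjoinRoot.mk f p) = φ p := fun p => rfl
  have hψ' : ∀ p, ψ' (AdjoinRoot.mk f p) = ψ p := fun p => rfl
  let T : AdjoinRoot f →ₗ[F] (Module.Dual F (AdjoinRoot f)) := (LinearMap.mul F (AdjoinRoot f)).compr₂ φ'
  have hT : ∀ x y, T x y = φ' (x * y) := fun x y => rfl
  have hinj : Function.Injective T := by
    rw [injective_iff_map_eq_zero]
    intro x hx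
    by_contra hx0
    obtain ⟨p, hp⟩ := hne
    apply hp
    rw [← hφ']
    have := LinearMap.congr_fun hx (x⁻¹ * AdjoinRoot.mk f p)
    rw [hT, mul_inv_cancel_left₀ hx0] at this
    exact this
  have hsurj : Function.Surjective T :=
    (LinearMap.injective_iff_surjective_of_finrank_eq_finrank (Subspace.dual_finrank_eq).symm).mp hinj
  obtain ⟨x, hx⟩ := hsurj ψ'
  obtain ⟨c, rfl⟩ := AdjoinRoot.mk_surjective x
  refine ⟨c, fun p => ?_⟩
  rw [← hφ', ← hψ', ← hx, hT, map_mul (AdjoinRoot.mk f)]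

section dual

variable {V : Type*} [AddCommGroup V] [Module F V] {B : V → V → F} (hB : Frm σ ε B) (hσ : ∀ a, σ (σ a) = a)
  {g : Module.End F V} (hg : ∀ x y, B (g x) (g y) = B x y) {m : ℕ} (hm : 0 < m) (hgm : g ^ m = 1) (hmF : (m : F) ≠ 0)
  {f f' : F[X]} (hf : Irreducible f) (hf' : Irreducible f') (hd : ∀ p, f ∣ bar σ m p ↔ f' ∣ p) (hfm : f ∣ X ^ m - 1)

include hd hfm in
theorem dual_dvd : f' ∣ X ^ m - 1 := by
  rw [← hd, map_sub, map_pow, bar_X, map_one, ← pow_mul, mul_comm, pow_mul]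
  exact hfm.trans (by simpa using sub_dvd_pow_sub_pow (X ^ m : F[X]) 1 (m - 1))

theorem zero_of_dvd {p q : F[X]} {v : V} (h : aeval g p v = 0) (hpq : p ∣ q) : aeval g q v = 0 := by
  obtain ⟨c, rfl⟩ := hpq
  rw [mul_comm, map_mul, Module.End.mul_apply, h, map_zero]

include hB hσ hg hm hgm hmF hf' hd hfm in
theorem exists_partner {v : V} (hv : v ≠ 0) (hfv : aeval g f v = 0) : ∃ w, aeval g f' w = 0 ∧ B v w ≠ 0 := by
  obtain ⟨y, hy⟩ : ∃ y, B v y ≠ 0 := by
    by_contra hcon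
    push Not at hcon
    exact hv (hB.nondeg v hcon)
  obtain ⟨k, hk⟩ := dual_dvd hd hfm
  have hsep : (X ^ m - 1 : F[X]).Separable := X_pow_sub_one_separable_iff.mpr hmF
  have hco : IsCoprime f' k := by
    rw [hk] at hsep
    exact hsep.isCoprime
  obtain ⟨a, b, hab⟩ := hco
  refine ⟨aeval g (b * k) y, ?_, ?_⟩
  · rw [← Module.End.mul_apply, ← map_mul, show f' * (b * k) = b * (X ^ m - 1) by rw [hk]; ring, map_mul, map_sub, map_pow, aeval_X, hgm, map_one, sub_self, mul_zero]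
    rfl
  · have h1 : y = aeval g (a * f') y + aeval g (b * k) y := by
      rw [← LinearMap.add_apply, ← map_add, hab, map_one]; rfl
    have h2 : B v (aeval g (a * f') y) = 0 := by
      rw [adj' hB hσ hg hm hgm, zero_of_dvd (p := f) hfv, hB.zero_left]
      rw [map_mul]
      exact Dvd.dvd.mul_left ((hd f').mpr dvd_rfl) _
    rw [h1, hB.add_right, h2, zero_add] at hy
    exact hy

include hσ hm hd hfm in
theorem dual_bar : f' ∣ bar σ m f := by
  rw [← hd]
  have h1 := bar_bar hσ hm hfm f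
  have := (dvd_sub_left (dvd_refl f)).mp h1
  exact this

include hB hσ hg hm hgm hf hf' hd in
theorem iso_f (hnd : ¬ f' ∣ f) {x y : V} (hx : aeval g f x = 0) (hy : aeval g f y = 0) : B x y = 0 := by
  obtain ⟨a, b, hab⟩ := (hf'.coprime_iff_not_dvd).mpr hnd
  have h1 : y = aeval g (a * f') y := by
    have : y = aeval g (a * f' + b * f) y := by rw [hab, map_one]; rfl
    rw [map_add, LinearMap.add_apply, map_mul _ b f, Module.End.mul_apply, hy, map_zero, add_zero] at this
    exact this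
  rw [h1, adj' hB hσ hg hm hgm, zero_of_dvd (p := f) hx, hB.zero_left]
  rw [map_mul]
  exact Dvd.dvd.mul_left ((hd f').mpr dvd_rfl) _

include hB hσ hg hm hgm hf hf' hd hfm in
theorem iso_f' (hnd : ¬ f' ∣ f) {x y : V} (hx : aeval g f' x = 0) (hy : aeval g f' y = 0) : B x y = 0 := by
  obtain ⟨a, b, hab⟩ := (hf'.coprime_iff_not_dvd).mpr hnd
  have h1 : y = aeval g (b * f) y := by
    have : y = aeval g (a * f' + b * f) y := by rw [hab, map_one]; rfl
    rw [map_add, LinearMap.add_apply, map_mul _ a f', Module.End.mul_apply, hy, map_zero, zero_add] at this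
    exact this
  rw [h1, adj' hB hσ hg hm hgm, zero_of_dvd (p := f') hx, hB.zero_left]
  rw [map_mul]
  exact Dvd.dvd.mul_left (dual_bar hσ hm hd hfm) _

include hB hσ hg hm hgm hmF hf hf' hd hfm in
theorem exists_aniso (hε : ε ≠ 0) (hff : f' ∣ f) (hnt : ∃ c, ¬ f ∣ bar σ m c - c) {v : V} (hv : v ≠ 0) (hfv : aeval g f v = 0) :
    ∃ x, aeval g f x = 0 ∧ ∃ p : F[X], B (aeval g p x) x ≠ 0 := by
  by_contra hcon
  push Not at hcon
  obtain ⟨w, hw1, hw2⟩ := exists_partner hB hσ hg hm hgm hmF hf' hd hfm hv hfv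
  have hfw : aeval g f w = 0 := zero_of_dvd hw1 hff
  have key : ∀ u, aeval g f u = 0 → ∀ p, B (aeval g p u) w = - (ε * σ (B (aeval g (bar σ m p) u) w)) := by
    intro u hu p
    have h1 := hcon (u + w) (by rw [map_add, hu, hfw, add_zero]) p
    have h2 := hcon u hu p
    have h3 := hcon w hfw p
    rw [map_add, hB.add_left, hB.add_right, hB.add_right, h2, h3, zero_add, add_zero] at h1
    rw [← adj' hB hσ hg hm hgm, ← hB.symm]
    linear_combination h1
  obtain ⟨c, hc⟩ := hnt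
  obtain ⟨a, r, har⟩ := (hf.coprime_iff_not_dvd).mpr hc
  have hfc : ∀ p : F[X], aeval g f (aeval g p v) = 0 := by
    intro p
    rw [← Module.End.mul_apply, ← map_mul, mul_comm, map_mul, Module.End.mul_apply, hfv, map_zero]
  have e1 := key v hfv (bar σ m r * c)
  have e2 := key (aeval g c v) (hfc c) (bar σ m r)
  rw [← Module.End.mul_apply, ← map_mul, ← Module.End.mul_apply, ← map_mul] at e2
  rw [e1] at e2
  have e3 := mul_left_cancel₀ hε (neg_injective e2)
  have e4 := σ.injective e3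
  rw [map_mul] at e4
  have e5 : B (aeval g (bar σ m (bar σ m r) * (bar σ m c - c)) v) w = 0 := by
    rw [mul_sub, map_sub, LinearMap.sub_apply, hB.sub_left, e4, sub_self]
  have e6 : aeval g (bar σ m (bar σ m r) * (bar σ m c - c)) v = v := by
    have h1 : aeval g ((bar σ m (bar σ m r) - r) * (bar σ m c - c)) v = 0 :=
      zero_of_dvd hfv (Dvd.dvd.mul_right (bar_bar hσ hm hfm r) _)
    have h2 : aeval g (a * f + r * (bar σ m c - c)) v = v := by rw [har, map_one]; rfl
    rw [map_add, LinearMap.add_apply, zero_of_dvd (q := a * f) hfv (Dvd.dvd.mul_left dvd_rfl _), zero_add] at h2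
    rw [sub_mul, map_sub, LinearMap.sub_apply, h2, sub_eq_zero] at h1
    exact h1
  rw [e6] at e5
  exact hw2 e5

/-- the functional `p ↦ B (p x) y` -/
noncomputable def fnl (hB : Frm σ ε B) (g : Module.End F V) (x y : V) : F[X] →ₗ[F] F where
  toFun p := B (aeval g p x) y
  map_add' p q := by rw [map_add, LinearMap.add_apply, hB.add_left]
  map_smul' a p := by rw [map_smul, LinearMap.smul_apply, hB.smul_left]; rfl

theorem fnl_dvd {x y : V} (hx : aeval g f x = 0) {p : F[X]} (hp : f ∣ p) : fnl hB g x y p = 0 := by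
  change B (aeval g p x) y = 0
  rw [zero_of_dvd hx hp, hB.zero_left]

include hf in
/-- nondegeneracy of functionals -/
theorem fnl_nd {φ : F[X] →ₗ[F] F} (hφ : ∀ p, f ∣ p → φ p = 0) (hne : ∃ p, φ p ≠ 0) {p : F[X]} (h : ∀ q, φ (q * p) = 0) : f ∣ p := by
  by_contra hnd
  obtain ⟨a, b, hab⟩ := (hf.coprime_iff_not_dvd).mpr hnd
  obtain ⟨s, hs⟩ := hne
  apply hs
  have : s = f * (a * s) + (b * s) * p := by
    calc s = (a * f + b * p) * s := by rw [hab, one_mul]
      _ = _ := by ring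
  rw [this, map_add, hφ _ (dvd_mul_right _ _), h, add_zero]

include hσ hm hfm in
/-- reduction of `bar (bar q)` -/
theorem fnl_bb {φ : F[X] →ₗ[F] F} (hφ : ∀ p, f ∣ p → φ p = 0) (q s : F[X]) : φ (bar σ m (bar σ m q) * s) = φ (q * s) := by
  rw [← sub_eq_zero, ← map_sub, ← sub_mul]
  exact hφ _ (Dvd.dvd.mul_right (bar_bar hσ hm hfm q) _)

end dual

section matching

variable {V : Type*} [AddCommGroup V] [Module F V] {B : V → V → F} (hB : Frm σ ε B) (hσ : ∀ a, σ (σ a) = a)
  {g : Module.End F V} (hg : ∀ x y, B (g x) (g y) = B x y) {m : ℕ} (hm : 0 < m) (hgm : g ^ m = 1)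
  {W : Type*} [AddCommGroup W] [Module F W] {B' : W → W → F} (hB' : Frm σ ε B')
  {h : Module.End F W} (hh : ∀ x y, B' (h x) (h y) = B' x y) (hhm : h ^ m = 1)
  {f f' : F[X]} (hf : Irreducible f) (hd : ∀ p, f ∣ bar σ m p ↔ f' ∣ p) (hfm : f ∣ X ^ m - 1)

include hB hσ hg hm hgm hB' hh hhm hf hd hfm in
theorem match_aniso [Finite F] (hff : f' ∣ f) (hnt : ∃ c, ¬ f ∣ bar σ m c - c) {v : V} {v' : W} (hfv : aeval g f v = 0) (hfv' : aeval h f v' = 0)
    (h1 : ∃ p : F[X], B (aeval g p v) v ≠ 0) (h2 : ∃ p : F[X], B' (aeval h p v') v' ≠ 0) :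
    ∃ d : F[X], ∀ p : F[X], B (aeval g p (aeval g d v)) (aeval g d v) = B' (aeval h p v') v' := by
  classical
  haveI : Fact (Irreducible f) := ⟨hf⟩
  haveI : Module.Finite F (AdjoinRoot f) := (AdjoinRoot.powerBasis hf.ne_zero).finite
  haveI : Finite (AdjoinRoot f) := Module.finite_of_finite F
  have hφd : ∀ p, f ∣ p → fnl hB g v v p = 0 := fun p hp => fnl_dvd hB hfv hp
  have hψd : ∀ p, f ∣ p → fnl hB' h v' v' p = 0 := fun p hp => fnl_dvd hB' hfv' hp
  obtain ⟨c, hc⟩ := functional hf (fnl hB g v v) (fnl hB' h v' v') hφd hψd h1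
  have hφb : ∀ p, fnl hB g v v (bar σ m p) = ε * σ (fnl hB g v v p) := by
    intro p
    change B (aeval g (bar σ m p) v) v = ε * σ (B (aeval g p v) v)
    rw [← adj' hB hσ hg hm hgm, ← hB.symm]
  have hψb : ∀ p, fnl hB' h v' v' (bar σ m p) = ε * σ (fnl hB' h v' v' p) := by
    intro p
    change B' (aeval h (bar σ m p) v') v' = ε * σ (B' (aeval h p v') v')
    rw [← adj' hB' hσ hh hm hhm, ← hB'.symm]
  have hbc : f ∣ bar σ m c - c := by
    apply fnl_nd hf hφd h1
    intro q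
    rw [← fnl_bb hσ hm hfm hφd, mul_sub, map_sub, sub_eq_zero, ← map_mul (bar σ m), hφb, mul_comm (bar σ m (bar σ m q)) c, ← hc, hψb, hc, mul_comm c]
  let τ : AdjoinRoot f →+* AdjoinRoot f := Ideal.Quotient.lift (Ideal.span {f}) ((AdjoinRoot.mk f).comp (bar σ m)) (by
    intro a ha
    rw [Ideal.mem_span_singleton] at ha
    rw [RingHom.comp_apply, AdjoinRoot.mk_eq_zero, hd]
    exact hff.trans ha)
  have hτ : ∀ p, τ (AdjoinRoot.mk f p) = AdjoinRoot.mk f (bar σ m p) := fun p => rfl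
  have hττ : ∀ x, τ (τ x) = x := by
    intro x
    obtain ⟨p, rfl⟩ := AdjoinRoot.mk_surjective x
    rw [hτ, hτ]
    exact AdjoinRoot.mk_eq_mk.mpr (bar_bar hσ hm hfm p)
  have hτne : ∃ x, τ x ≠ x := by
    obtain ⟨c, hc⟩ := hnt
    refine ⟨AdjoinRoot.mk f c, ?_⟩
    rw [hτ]
    intro he
    exact hc (AdjoinRoot.mk_eq_mk.mp he)
  have hc0 : AdjoinRoot.mk f c ≠ 0 := by
    intro h0
    rw [AdjoinRoot.mk_eq_zero] at h0
    obtain ⟨p, hp⟩ := h2
    apply hp
    change fnl hB' h v' v' p = 0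
    rw [hc]
    exact hφd _ (Dvd.dvd.mul_right h0 _)
  obtain ⟨x, hx⟩ := inv_norm τ hττ hτne (c := AdjoinRoot.mk f c) (by rw [hτ]; exact AdjoinRoot.mk_eq_mk.mpr hbc) hc0
  obtain ⟨d, rfl⟩ := AdjoinRoot.mk_surjective x
  rw [hτ, ← map_mul, AdjoinRoot.mk_eq_mk] at hx
  refine ⟨d, fun p => ?_⟩
  rw [adj' hB hσ hg hm hgm, ← Module.End.mul_apply, ← Module.End.mul_apply, ← map_mul, ← map_mul]
  change fnl hB g v v _ = fnl hB' h v' v' p
  rw [hc]
  symm
  rw [← sub_eq_zero, ← map_sub]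
  apply hφd
  have : c * p - bar σ m d * p * d = (c - bar σ m d * d) * p := by ring
  first
    | rw [this]; exact Dvd.dvd.mul_right hx _
    | (rw [show c * p - bar σ m d * (p * d) = (c - bar σ m d * d) * p by ring]; exact Dvd.dvd.mul_right hx _)

end matching


end Cfsg.Agent.H15.FM
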