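import Mathlib
import Cfsg.Agent.H15_FM2

set_option autoImplicit false
open Module Polynomial

namespace Cfsg.Agent.H15.FM

open Cfsg.Agent.H15.SS

variable {F : Type*} [Field F] {σ : F →+* F} {ε : F}

section iso

variable {V : Type*} [AddCommGroup V] [Module F V] {B : V → V → F} (hB : Frm σ ε B) (hσ : ∀ a, σ (σ a) = a)
  {g : Module.End F V} (hg : ∀ x y, B (g x) (g y) = B x y) {m : ℕ} (hm : 0 < m) (hgm : g ^ m = 1)
  {f f' : F[X]} (hf : Irreducible f) (hf' : Irreducible f') (hd : ∀ p, f ∣ bar σ m p ↔ f' ∣ p) (hfm : f ∣ X ^ m - 1)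

include hm hf hfm in
/-- trivial involution modulo `f` -/
theorem triv_case (htr : ∀ c, f ∣ bar σ m c - c) : (∀ a, σ a = a) ∧ ∃ lam : F, f ∣ X - C lam := by
  constructor
  · intro a
    by_contra hne
    have h1 := htr (C a)
    rw [bar_C, ← map_sub] at h1
    have h2 : IsUnit (C (σ a - a)) := isUnit_C.mpr (Ne.isUnit (sub_ne_zero.mpr hne))
    exact hf.not_isUnit (isUnit_of_dvd_unit h1 h2)
  · have h1 := htr X
    rw [bar_X] at h1
    have hm0 : m ≠ 0 := hm.ne'
    have h2 : f ∣ X ^ 2 - 1 := by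
      have h3 : (X ^ 2 - 1 : F[X]) = (X ^ m - 1) - X * (X ^ (m - 1) - X) := by
        have : (X : F[X]) * X ^ (m - 1) = X ^ m := by
          rw [← pow_succ', Nat.sub_add_cancel (Nat.pos_of_ne_zero hm0)]
        rw [mul_sub, this]
        ring
      rw [h3]
      exact dvd_sub hfm (Dvd.dvd.mul_left h1 _)
    have h3 : (X ^ 2 - 1 : F[X]) = (X - C 1) * (X - C (-1)) := by
      simp only [map_one, map_neg]; ring
    rw [h3] at h2
    rcases hf.prime.dvd_or_dvd h2 with h | h
    · exact ⟨1, h⟩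
    · exact ⟨-1, h⟩

theorem eig {lam : F} (hl : f ∣ X - C lam) {x : V} (hx : aeval g f x = 0) (p : F[X]) : aeval g p x = (p.eval lam) • x := by
  have h1 : f ∣ p - C (p.eval lam) := hl.trans (X_sub_C_dvd_sub_C_eval)
  have h2 := zero_of_dvd hx h1
  rw [map_sub, LinearMap.sub_apply, aeval_C, sub_eq_zero] at h2
  exact h2

include hB hσ hg hm hgm hf hf' hd hfm in
theorem isoS (hcase : ¬ (f' ∣ f ∧ ∃ c, ¬ f ∣ bar σ m c - c)) {x : V} (hx : aeval g f x = 0) (p r : F[X]) :
    B (aeval g p x) (aeval g r x) = 0 := by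
  have hp : ∀ p : F[X], aeval g f (aeval g p x) = 0 := by
    intro p
    rw [← Module.End.mul_apply, ← map_mul, mul_comm, map_mul, Module.End.mul_apply, hx, map_zero]
  by_cases h1 : f' ∣ f
  · have h2 : ∀ c, f ∣ bar σ m c - c := by
      intro c
      by_contra h3
      exact hcase ⟨h1, c, h3⟩
    obtain ⟨h3, lam, hl⟩ := triv_case hm hf hfm h2
    rw [eig hl hx, eig hl hx, hB.smul_left, hB.smul_right hσ, hB.alt h3, mul_zero, mul_zero]
  · exact iso_f hB hσ hg hm hgm hf hf' hd h1 (hp p) (hp r)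

include hB hσ hg hm hgm hf hf' hd hfm in
theorem isoT (hcase : ¬ (f' ∣ f ∧ ∃ c, ¬ f ∣ bar σ m c - c)) {x : V} (hx : aeval g f' x = 0) (p r : F[X]) :
    B (aeval g p x) (aeval g r x) = 0 := by
  have hp : ∀ p : F[X], aeval g f' (aeval g p x) = 0 := by
    intro p
    rw [← Module.End.mul_apply, ← map_mul, mul_comm, map_mul, Module.End.mul_apply, hx, map_zero]
  by_cases h1 : f' ∣ f
  · exact isoS hB hσ hg hm hgm hf hf' hd hfm hcase (zero_of_dvd hx h1) p r
  · exact iso_f' hB hσ hg hm hgm hf hf' hd hfm h1 (hp p) (hp r)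

end iso

/-- the core: a nondegenerate invariant piece -/
theorem piece [Finite F] (hσ : ∀ a, σ (σ a) = a) (hε : ε ≠ 0) {m : ℕ} (hm : 0 < m) (hmF : (m : F) ≠ 0)
    {V W : Type*} [AddCommGroup V] [Module F V] [Module.Finite F V] [AddCommGroup W] [Module F W] [Module.Finite F W]
    {B : V → V → F} {B' : W → W → F} (hB : Frm σ ε B) (hB' : Frm σ ε B')
    {g : Module.End F V} {h : Module.End F W} (hg : ∀ x y, B (g x) (g y) = B x y) (hh : ∀ x y, B' (h x) (h y) = B' x y)
    (hgm : g ^ m = 1) (hhm : h ^ m = 1) (hV : 0 < finrank F V) (hc : g.charpoly = h.charpoly) :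
    ∃ (U : Submodule F V) (U' : Submodule F W) (hgU : ∀ x ∈ U, g x ∈ U) (hhU : ∀ x ∈ U', h x ∈ U'),
      U ≠ ⊥ ∧ (∀ x ∈ U, (∀ y ∈ U, B x y = 0) → x = 0) ∧ (∀ x ∈ U', (∀ y ∈ U', B' x y = 0) → x = 0) ∧
      Iso (fun x y : U => B x y) (fun x y : U' => B' x y) (g.restrict hgU) (h.restrict hhU) := by
  have hdeg : 0 < g.charpoly.natDegree := by
    rw [LinearMap.charpoly_natDegree]; exact hV
  obtain ⟨f, hf, hfd⟩ : ∃ f : F[X], Irreducible f ∧ f ∣ g.charpoly := by
    apply WfDvdMonoid.exists_irreducible_factor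
    · intro hu
      rw [Polynomial.natDegree_eq_zero_of_isUnit hu] at hdeg
      exact absurd hdeg (lt_irrefl _)
    · exact g.charpoly_monic.ne_zero
  obtain ⟨v, hv, hfv⟩ := exists_ker hf hfd
  obtain ⟨v', hv', hfv'⟩ := exists_ker hf (hc ▸ hfd)
  have hfm : f ∣ X ^ m - 1 := by
    rw [← ker_ev hf hv hfv, ev_apply, map_sub, map_pow, aeval_X, hgm, map_one, sub_self]; rfl
  obtain ⟨f', hf', hd⟩ := exists_dual hσ hm hf hfm
  by_cases hcase : f' ∣ f ∧ ∃ c, ¬ f ∣ bar σ m c - c
  · obtain ⟨hff, hnt⟩ := hcase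
    obtain ⟨x, hfx, hx⟩ := exists_aniso hB hσ hg hm hgm hmF hf hf' hd hfm hε hff hnt hv hfv
    obtain ⟨x', hfx', hx'⟩ := exists_aniso hB' hσ hh hm hhm hmF hf hf' hd hfm hε hff hnt hv' hfv'
    obtain ⟨d, hdd⟩ := match_aniso hB hσ hg hm hgm hB' hh hhm hf hd hfm hff hnt hfx hfx' hx hx'
    set y := aeval g d x with hy
    have hfy : aeval g f y = 0 := by
      rw [hy, ← Module.End.mul_apply, ← map_mul, mul_comm, map_mul, Module.End.mul_apply, hfx, map_zero]
    have hy1 : ∃ p : F[X], B (aeval g p y) y ≠ 0 := by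
      obtain ⟨p, hp⟩ := hx'
      exact ⟨p, by rw [hdd]; exact hp⟩
    have nd1 : ∀ u, (∀ u', B (ev g y u) (ev g y u') = 0) → ev g y u = 0 := by
      intro u hu
      rw [ev_apply]
      apply zero_of_dvd hfy
      apply fnl_nd hf (φ := fnl hB g y y) (fun p hp => fnl_dvd hB hfy hp) hy1
      intro q
      rw [← fnl_bb hσ hm hfm (fun p hp => fnl_dvd hB hfy hp)]
      have := hu (bar σ m q)
      rw [ev_apply, ev_apply, adj' hB hσ hg hm hgm, ← Module.End.mul_apply, ← map_mul] at this
      exact this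
    have nd2 : ∀ u, (∀ u', B' (ev h x' u) (ev h x' u') = 0) → ev h x' u = 0 := by
      intro u hu
      rw [ev_apply]
      apply zero_of_dvd hfx'
      apply fnl_nd hf (φ := fnl hB' h x' x') (fun p hp => fnl_dvd hB' hfx' hp) hx'
      intro q
      rw [← fnl_bb hσ hm hfm (fun p hp => fnl_dvd hB' hfx' hp)]
      have := hu (bar σ m q)
      rw [ev_apply, ev_apply, adj' hB' hσ hh hm hhm, ← Module.End.mul_apply, ← map_mul] at this
      exact this
    refine ⟨LinearMap.range (ev g y), LinearMap.range (ev h x'), range_inv g y, range_inv h x', ?_, ?_, ?_, ?_⟩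
    · intro hbot
      have hy0 : y ∈ LinearMap.range (ev g y) := ⟨1, by rw [ev_apply, map_one]; rfl⟩
      rw [hbot, Submodule.mem_bot] at hy0
      obtain ⟨p, hp⟩ := hy1
      apply hp
      rw [hy0, hB.zero_right]
    · rintro _ ⟨u, rfl⟩ hu
      exact nd1 u (fun u' => hu _ ⟨u', rfl⟩)
    · rintro _ ⟨u, rfl⟩ hu
      exact nd2 u (fun u' => hu _ ⟨u', rfl⟩)
    · apply param g h (ev g y) (ev h x') (fun u => X * u) (fun u => ev_X g y u) (fun u => ev_X h x' u) ?_ hB.zero_left hB'.zero_left nd1 nd2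
      intro u u'
      rw [ev_apply, ev_apply, ev_apply, ev_apply, adj' hB hσ hg hm hgm, adj' hB' hσ hh hm hhm, ← Module.End.mul_apply, ← map_mul,
        ← Module.End.mul_apply, ← map_mul, hdd]
  · obtain ⟨w, hfw, hw⟩ := exists_partner hB hσ hg hm hgm hmF hf' hd hfm hv hfv
    obtain ⟨w', hfw', hw'⟩ := exists_partner hB' hσ hh hm hhm hmF hf' hd hfm hv' hfv'
    obtain ⟨c, hcc⟩ := functional hf (fnl hB g v w) (fnl hB' h v' w') (fun p hp => fnl_dvd hB hfv hp) (fun p hp => fnl_dvd hB' hfv' hp)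
      ⟨1, by change B (aeval g 1 v) w ≠ 0; rw [map_one]; exact hw⟩
    obtain ⟨y, hy⟩ : ∃ y, y = aeval g c v := ⟨_, rfl⟩
    have hfy : aeval g f y = 0 := by
      rw [hy, ← Module.End.mul_apply, ← map_mul, mul_comm, map_mul, Module.End.mul_apply, hfv, map_zero]
    have hpair : ∀ p : F[X], B (aeval g p y) w = B' (aeval h p v') w' := by
      intro p
      have := hcc p
      rw [hy, ← Module.End.mul_apply, ← map_mul, mul_comm]
      exact this.symm
    have hyw : B y w ≠ 0 := by
      have := hpair 1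
      rw [map_one, map_one] at this
      change B y w = B' v' w' at this
      rw [this]; exact hw'
    -- the parametrisation
    have form1 : ∀ p r p₁ r₁ : F[X], B (aeval g p y + aeval g r w) (aeval g p₁ y + aeval g r₁ w) =
        B (aeval g (bar σ m r₁ * p) y) w + ε * σ (B (aeval g (bar σ m r * p₁) y) w) := by
      intro p r p₁ r₁
      rw [hB.add_left, hB.add_right, hB.add_right, isoS hB hσ hg hm hgm hf hf' hd hfm hcase hfy, isoT hB hσ hg hm hgm hf hf' hd hfm hcase hfw, zero_add, add_zero,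
        adj' hB hσ hg hm hgm, ← Module.End.mul_apply, ← map_mul, hB.symm (aeval g p₁ y) (aeval g r w), adj' hB hσ hg hm hgm, ← Module.End.mul_apply, ← map_mul]
    have form2 : ∀ p r p₁ r₁ : F[X], B' (aeval h p v' + aeval h r w') (aeval h p₁ v' + aeval h r₁ w') =
        B' (aeval h (bar σ m r₁ * p) v') w' + ε * σ (B' (aeval h (bar σ m r * p₁) v') w') := by
      intro p r p₁ r₁
      rw [hB'.add_left, hB'.add_right, hB'.add_right, isoS hB' hσ hh hm hhm hf hf' hd hfm hcase hfv', isoT hB' hσ hh hm hhm hf hf' hd hfm hcase hfw', zero_add, add_zero,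
        adj' hB' hσ hh hm hhm, ← Module.End.mul_apply, ← map_mul, hB'.symm (aeval h p₁ v') (aeval h r w'), adj' hB' hσ hh hm hhm, ← Module.End.mul_apply, ← map_mul]
    let P : (F[X] × F[X]) →ₗ[F] V := (ev g y).coprod (ev g w)
    let P' : (F[X] × F[X]) →ₗ[F] W := (ev h v').coprod (ev h w')
    have hP : ∀ u, P u = aeval g u.1 y + aeval g u.2 w := fun u => rfl
    have hP' : ∀ u, P' u = aeval h u.1 v' + aeval h u.2 w' := fun u => rfl
    have hXP : ∀ u : F[X] × F[X], P (X * u.1, X * u.2) = g (P u) := by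
      intro u
      rw [hP, hP, map_add, map_mul, map_mul, aeval_X, Module.End.mul_apply, Module.End.mul_apply]
    have hXP' : ∀ u : F[X] × F[X], P' (X * u.1, X * u.2) = h (P' u) := by
      intro u
      rw [hP', hP', map_add, map_mul, map_mul, aeval_X, Module.End.mul_apply, Module.End.mul_apply]
    have nd1 : ∀ u, (∀ u', B (P u) (P u') = 0) → P u = 0 := by
      intro u hu
      rw [hP]
      have h1 : f ∣ u.1 := by
        apply fnl_nd hf (φ := fnl hB g y w) (fun p hp => fnl_dvd hB hfy hp) ⟨1, by change B (aeval g 1 y) w ≠ 0; rw [map_one]; exact hyw⟩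
        intro q
        rw [← fnl_bb hσ hm hfm (fun p hp => fnl_dvd hB hfy hp)]
        have := hu (0, bar σ m q)
        rw [hP, hP, form1, mul_zero, map_zero, LinearMap.zero_apply, hB.zero_left, map_zero, mul_zero, add_zero] at this
        exact this
      have h2 : f' ∣ u.2 := by
        rw [← hd]
        apply fnl_nd hf (φ := fnl hB g y w) (fun p hp => fnl_dvd hB hfy hp) ⟨1, by change B (aeval g 1 y) w ≠ 0; rw [map_one]; exact hyw⟩
        intro q
        have := hu (q, 0)
        rw [hP, hP, form1, map_zero, zero_mul, map_zero, LinearMap.zero_apply, hB.zero_left, zero_add] at this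
        have h3 := (mul_eq_zero.mp this).resolve_left hε
        rw [mul_comm q]
        exact (map_eq_zero σ).mp h3
      rw [zero_of_dvd hfy h1, zero_of_dvd hfw h2, add_zero]
    have nd2 : ∀ u, (∀ u', B' (P' u) (P' u') = 0) → P' u = 0 := by
      intro u hu
      rw [hP']
      have h1 : f ∣ u.1 := by
        apply fnl_nd hf (φ := fnl hB' h v' w') (fun p hp => fnl_dvd hB' hfv' hp) ⟨1, by change B' (aeval h 1 v') w' ≠ 0; rw [map_one]; exact hw'⟩
        intro q
        rw [← fnl_bb hσ hm hfm (fun p hp => fnl_dvd hB' hfv' hp)]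
        have := hu (0, bar σ m q)
        rw [hP', hP', form2, mul_zero, map_zero, LinearMap.zero_apply, hB'.zero_left, map_zero, mul_zero, add_zero] at this
        exact this
      have h2 : f' ∣ u.2 := by
        rw [← hd]
        apply fnl_nd hf (φ := fnl hB' h v' w') (fun p hp => fnl_dvd hB' hfv' hp) ⟨1, by change B' (aeval h 1 v') w' ≠ 0; rw [map_one]; exact hw'⟩
        intro q
        have := hu (q, 0)
        rw [hP', hP', form2, map_zero, zero_mul, map_zero, LinearMap.zero_apply, hB'.zero_left, zero_add] at this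
        have h3 := (mul_eq_zero.mp this).resolve_left hε
        rw [mul_comm q]
        exact (map_eq_zero σ).mp h3
      rw [zero_of_dvd hfv' h1, zero_of_dvd hfw' h2, add_zero]
    refine ⟨LinearMap.range P, LinearMap.range P', ?_, ?_, ?_, ?_, ?_, ?_⟩
    · rintro _ ⟨u, rfl⟩
      exact ⟨_, hXP u⟩
    · rintro _ ⟨u, rfl⟩
      exact ⟨_, hXP' u⟩
    · intro hbot
      have hy0 : y ∈ LinearMap.range P := ⟨(1, 0), by rw [hP, map_one, map_zero, LinearMap.zero_apply, add_zero]; rfl⟩
      rw [hbot, Submodule.mem_bot] at hy0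
      apply hyw
      rw [hy0, hB.zero_left]
    · rintro _ ⟨u, rfl⟩ hu
      exact nd1 u (fun u' => hu _ ⟨u', rfl⟩)
    · rintro _ ⟨u, rfl⟩ hu
      exact nd2 u (fun u' => hu _ ⟨u', rfl⟩)
    · apply param g h P P' (fun u => (X * u.1, X * u.2)) hXP hXP' ?_ hB.zero_left hB'.zero_left nd1 nd2
      intro u u'
      rw [hP, hP, hP', hP', form1, form2, hpair, hpair]

theorem hpow {X : Type*} [AddCommGroup X] [Module F X] (k : Module.End F X) (P : Submodule F X) (hP : ∀ x ∈ P, k x ∈ P) {m : ℕ} (hk : k ^ m = 1) : (k.restrict hP) ^ m = 1 := by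
  apply LinearMap.ext
  intro x
  apply Subtype.ext
  have h2 : ∀ j : ℕ, (((k.restrict hP) ^ j) x : X) = (k ^ j) (x : X) := by
    intro j
    induction j with
    | zero => rfl
    | succ j ih =>
      rw [pow_succ', Module.End.mul_apply, LinearMap.restrict_coe_apply, ih, pow_succ', Module.End.mul_apply]
  rw [h2, hk]; rfl

theorem main [Finite F] (hσ : ∀ a, σ (σ a) = a) (hε : ε ≠ 0) {m : ℕ} (hm : 0 < m) (hmF : (m : F) ≠ 0) (n : ℕ) :
    ∀ {V W : Type*} [AddCommGroup V] [Module F V] [Module.Finite F V] [AddCommGroup W] [Module F W] [Module.Finite F W]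
    {B : V → V → F} {B' : W → W → F} (_ : Frm σ ε B) (_ : Frm σ ε B')
    {g : Module.End F V} {h : Module.End F W} (_ : ∀ x y, B (g x) (g y) = B x y) (_ : ∀ x y, B' (h x) (h y) = B' x y)
    (_ : g ^ m = 1) (_ : h ^ m = 1) (_ : finrank F V = n) (_ : g.charpoly = h.charpoly), Iso B B' g h := by
  induction n using Nat.strong_induction_on with
  | _ n ih =>
  intro V W _ _ _ _ _ _ B B' hB hB' g h hg hh hgm hhm hn hc
  have hn' : finrank F W = finrank F V := by
    rw [← LinearMap.charpoly_natDegree g, hc, LinearMap.charpoly_natDegree]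
  rcases Nat.eq_zero_or_pos n with h0 | hpos
  · haveI : Subsingleton V := finrank_zero_iff.mp (hn.trans h0)
    haveI : Subsingleton W := finrank_zero_iff.mp (hn'.trans (hn.trans h0))
    refine ⟨LinearEquiv.ofFinrankEq V W hn'.symm, fun v => Subsingleton.elim _ _, fun x y => ?_⟩
    rw [Subsingleton.elim x 0, map_zero, hB.zero_left, hB'.zero_left]
  obtain ⟨U, U', hgU, hhU, hU0, hU1, hU2, hiso⟩ := piece hσ hε hm hmF hB hB' hg hh hgm hhm (by omega) hc
  have hgP := perp_inv hB hσ hg hm hgm U hgU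
  have hhP := perp_inv hB' hσ hh hm hhm U' hhU
  have hcU := perp_compl hB hσ U hU1
  have hcU' := perp_compl hB' hσ U' hU2
  apply step hB hB' hσ U U' hU1 hU2 hgU hhU hgP hhP hiso
  have hdim : finrank F (perp hB hσ U) < n := by
    have h1 := Submodule.finrank_add_eq_of_isCompl hcU
    have h2 : 0 < finrank F U := by
      apply Nat.pos_of_ne_zero
      intro h3
      exact hU0 (Submodule.finrank_eq_zero.mp h3)
    omega
  have hcp : (g.restrict hgP).charpoly = (h.restrict hhP).charpoly := by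
    obtain ⟨e, he, _⟩ := hiso
    have e1 := charpoly_split g hcU hgU hgP
    have e2 := charpoly_split h hcU' hhU hhP
    have e3 : (g.restrict hgU).charpoly = (h.restrict hhU).charpoly := by
      rw [← LinearEquiv.charpoly_conj e (g.restrict hgU)]
      congr 1
      apply LinearMap.ext
      intro x
      obtain ⟨y, rfl⟩ := e.surjective x
      rw [LinearEquiv.conj_apply, LinearMap.comp_apply, LinearMap.comp_apply, LinearEquiv.coe_coe, LinearEquiv.coe_coe, LinearEquiv.symm_apply_apply]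
      exact he y
    rw [e1, e2, e3] at hc
    exact mul_left_cancel₀ (LinearMap.charpoly_monic _).ne_zero hc
  exact ih _ hdim (frm_restrict hB hσ U hU1) (frm_restrict hB' hσ U' hU2) (fun x y => hg x y) (fun x y => hh x y)
    (hpow g _ hgP hgm) (hpow h _ hhP hhm) rfl hcp

end Cfsg.Agent.H15.FM
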