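import Cfsg.Agent.H15_G2c
import Cfsg.Agent.S1077
import Cfsg.Agent.S1078

set_option autoImplicit false

/-! A 6-dimensional module of the Chevalley group of type `G₂` over the field with four elements. -/

namespace Cfsg.Agent.H15.G2R

open Cfsg Cfsg.Lie Cfsg.Lie.ChevalleyDatum

variable {F : Type*} [Field F]

def ev (w : F) (n : ℕ) : F := (if n.testBit 0 then 1 else 0) + (if n.testBit 1 then w else 0)

theorem ev0 (w : F) : ev w 0 = 0 := by simp [ev]
theorem ev1 (w : F) : ev w 1 = 1 := by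
  have h0 : Nat.testBit 1 0 = true := by decide
  have h1 : Nat.testBit 1 1 = false := by decide
  simp [ev, h1]
theorem ev2 (w : F) : ev w 2 = w := by
  have h0 : Nat.testBit 2 0 = false := by decide
  have h1 : Nat.testBit 2 1 = true := by decide
  simp [ev, h0, h1]
theorem ev3 (w : F) : ev w 3 = 1 + w := by
  have h0 : Nat.testBit 3 0 = true := by decide
  have h1 : Nat.testBit 3 1 = true := by decide
  simp [ev, h0, h1]

theorem bxor (h2 : (2 : F) = 0) (x : F) (a b : Bool) : (if (a ^^ b) = true then x else 0) = (if a = true then x else 0) + (if b = true then x else 0) := by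
  cases a <;> cases b <;> simp
  linear_combination (-x) * h2

theorem ev_xor (h2 : (2 : F) = 0) (w : F) (a b : ℕ) : ev w (a ^^^ b) = ev w a + ev w b := by
  unfold ev
  rw [Nat.testBit_xor, Nat.testBit_xor, bxor h2, bxor h2]
  ring

theorem ev_mulc (h2 : (2 : F) = 0) {w : F} (hw : w ^ 2 + w + 1 = 0) {a b : ℕ} (ha : a < 4) (hb : b < 4) :
    ev w (mulc a b) = ev w a * ev w b := by
  have t : ∀ a < 4, ∀ b < 4, mulc a b = [0,0,0,0, 0,1,2,3, 0,2,3,1, 0,3,1,2].getD (4 * a + b) 0 := by decide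
  rw [t a ha b hb]
  interval_cases a <;> interval_cases b <;> simp only [List.getD_cons_zero, List.getD_cons_succ, Nat.mul_zero, Nat.zero_add, Nat.reduceMul, Nat.reduceAdd, ev0, ev1, ev2, ev3] <;>
    first
      | ring1
      | linear_combination (-1 : F) * hw
      | linear_combination (-1 : F) * hw + h2
      | linear_combination (-1 : F) * hw + (1 + w) * h2

/-! ### coordinates -/

theorem gt_xor (a b i : ℕ) : gt (a ^^^ b) i = gt a i ^^^ gt b i := by
  unfold gt
  rw [Nat.shiftRight_xor_distrib, Nat.and_xor_distrib_right]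

theorem gt_lt (v i : ℕ) : gt v i < 4 := by
  unfold gt
  exact lt_of_le_of_lt Nat.and_le_right (by norm_num)

theorem gt_shl : ∀ x < 4, ∀ i j : Fin 6, gt (x <<< (2 * i.1)) j.1 = if j = i then x else 0 := by decide

theorem mulc_lt (a b : ℕ) : mulc a b < 4 := by
  unfold mulc
  exact lt_of_le_of_lt Nat.and_le_right (by norm_num)

theorem sqc_lt (b : Bool) {c : ℕ} (hc : c < 4) : sqc b c < 4 := by
  cases b
  · exact hc
  · exact mulc_lt _ _

def evV (w : F) (v : ℕ) : Fin 6 → F := fun i => ev w (gt v i)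

theorem evV_xor (h2 : (2 : F) = 0) (w : F) (a b : ℕ) : evV w (a ^^^ b) = evV w a + evV w b := by
  funext i
  rw [Pi.add_apply]
  unfold evV
  rw [gt_xor, ev_xor h2]

theorem evV_shl (w : F) {x : ℕ} (hx : x < 4) (i : Fin 6) : evV w (x <<< (2 * i.1)) = Pi.single i (ev w x) := by
  funext j
  unfold evV
  rw [gt_shl x hx, Pi.single_apply]
  split_ifs
  · rfl
  · exact ev0 w

theorem evV_zero (w : F) : evV w 0 = 0 := by
  funext j
  have : gt 0 j = 0 := by unfold gt; simp
  unfold evV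
  rw [this, ev0]; rfl

/-- the elementary operator `v ↦ v_j e_i`. -/
def E (i j : Fin 6) : Module.End F (Fin 6 → F) := (LinearMap.single F (fun _ => F) i).comp (LinearMap.proj j)

theorem E_apply (i j : Fin 6) (v : Fin 6 → F) : E i j v = Pi.single i (v j) := rfl

def co (b : Bool) (t : F) : F := bif b then t * t else t

def XL (t : F) : List (Fin 6 × Fin 6 × Bool) → Module.End F (Fin 6 → F)
  | [] => 0
  | p :: L => co p.2.2 t • E p.1 p.2.1 + XL t L

def X (r : ℕ) (t : F) : Module.End F (Fin 6 → F) := 1 + XL t (tb r)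

theorem ev_sqc (h2 : (2 : F) = 0) {w : F} (hw : w ^ 2 + w + 1 = 0) (b : Bool) {c : ℕ} (hc : c < 4) : ev w (sqc b c) = co b (ev w c) := by
  cases b
  · rfl
  · exact ev_mulc h2 hw hc hc

theorem ev_xs (h2 : (2 : F) = 0) {w : F} (hw : w ^ 2 + w + 1 = 0) {c : ℕ} (hc : c < 4) (v : ℕ) :
    ∀ L, evV w (xs c v L) = XL (ev w c) L (evV w v)
  | [] => evV_zero w
  | p :: L => by
    rw [xs, XL, evV_xor h2, ev_xs h2 hw hc v L, evV_shl w (mulc_lt _ _), ev_mulc h2 hw (sqc_lt _ hc) (gt_lt _ _), ev_sqc h2 hw _ hc,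
      LinearMap.add_apply, LinearMap.smul_apply, E_apply, ← Pi.single_smul]
    rfl

theorem ev_act (h2 : (2 : F) = 0) {w : F} (hw : w ^ 2 + w + 1 = 0) {c : ℕ} (hc : c < 4) (r v : ℕ) :
    evV w (act r c v) = X r (ev w c) (evV w v) := by
  rw [act, evV_xor h2, ev_xs h2 hw hc, X, LinearMap.add_apply]
  rfl

/-- operator of a coded word -/
def WX (w : F) (l : List (ℕ × ℕ)) : Module.End F (Fin 6 → F) := (l.map fun p => X p.1 (ev w p.2)).prod

theorem WX_cons (w : F) (p : ℕ × ℕ) (l : List (ℕ × ℕ)) : WX w (p :: l) = X p.1 (ev w p.2) * WX w l := rfl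

theorem WX_nil (w : F) : WX w [] = 1 := rfl

theorem WX_append (w : F) (l l' : List (ℕ × ℕ)) : WX w (l ++ l') = WX w l * WX w l' := by
  unfold WX
  rw [List.map_append, List.prod_append]

theorem ev_run (h2 : (2 : F) = 0) {w : F} (hw : w ^ 2 + w + 1 = 0) : ∀ (l : List (ℕ × ℕ)) (_ : ∀ p ∈ l, p.2 < 4) (v : ℕ),
    evV w (run l v) = WX w l (evV w v)
  | [], _, v => rfl
  | p :: l, h, v => by
    have h1 : run (p :: l) v = act p.1 p.2 (run l v) := rfl
    rw [h1, ev_act h2 hw (h p (List.mem_cons_self ..)), ev_run h2 hw l (fun q hq => h q (List.mem_cons_of_mem _ hq)), WX_cons]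
    rfl

theorem evV_basis (w : F) (b : Fin 6) : evV w (1 <<< (2 * b.1)) = Pi.single b 1 := by
  rw [evV_shl w (by norm_num), ev1]

theorem end_ext {f g : Module.End F (Fin 6 → F)} (h : ∀ b : Fin 6, f (Pi.single b 1) = g (Pi.single b 1)) : f = g := by
  refine LinearMap.pi_ext fun i x => ?_
  have : Pi.single (M := fun _ : Fin 6 => F) i x = x • Pi.single i 1 := by rw [← Pi.single_smul, smul_eq_mul, mul_one]
  rw [this, map_smul, map_smul, h]

theorem eqw_eq (h2 : (2 : F) = 0) {w : F} (hw : w ^ 2 + w + 1 = 0) {l l' : List (ℕ × ℕ)} (h : ∀ p ∈ l, p.2 < 4) (h' : ∀ p ∈ l', p.2 < 4)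
    (he : eqw l l' = true) : WX w l = WX w l' := by
  refine end_ext fun b => ?_
  have h3 := all_range he b.2
  have h4 : run l (1 <<< (2 * b.1)) = run l' (1 <<< (2 * b.1)) := Nat.eq_of_beq_eq_true h3
  rw [← evV_basis w b, ← ev_run h2 hw l h, ← ev_run h2 hw l' h', h4]

theorem ckp_eq (h2 : (2 : F) = 0) {w : F} (hw : w ^ 2 + w + 1 = 0) {l : List (ℕ × ℕ)} (h : ∀ p ∈ l, p.2 < 4) {n : ℕ}
    (he : ckp l n = true) : ∑ k ∈ Finset.range n, WX w l ^ k = 0 := by
  refine end_ext fun b => ?_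
  have h3 := all_range he b.2
  have h4 : psum l (1 <<< (2 * b.1)) n = 0 := Nat.eq_of_beq_eq_true h3
  have key : ∀ n v, evV w (psum l v n) = (∑ k ∈ Finset.range n, WX w l ^ k) (evV w v) := by
    intro n
    induction n with
    | zero => intro v; rw [psum, evV_zero]; rfl
    | succ n ih =>
      intro v
      rw [psum, evV_xor h2, ih, ev_run h2 hw l h, Finset.sum_range_succ', LinearMap.add_apply, pow_zero, add_comm]
      congr 1
      simp only [pow_succ, ← Finset.sum_mul]
      rfl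
  rw [← evV_basis w b, ← key, h4, evV_zero]; rfl

end Cfsg.Agent.H15.G2R
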