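import Cfsg.Agent.H15_G2d
import Cfsg.Agent.S1055
import Cfsg.Agent.S1059

set_option autoImplicit false

/-! A 6-dimensional module of the Chevalley group of type `G₂` over the field with four elements: the homomorphism. -/

namespace Cfsg.Agent.H15.G2R

open Cfsg Cfsg.Lie Cfsg.Lie.ChevalleyDatum

variable {F : Type*} [Field F]

/-- the field with four elements, with a chosen primitive element. -/
structure F4 (F : Type*) [Field F] (w : F) : Prop where
  two : (2 : F) = 0
  hw : w ^ 2 + w + 1 = 0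
  sur : ∀ x : F, ∃ c < 4, ev w c = x

theorem exists_F4 [Fintype F] (hF : Fintype.card F = 4) : ∃ w : F, F4 F w := by
  classical
  haveI : Fact (Nat.Prime 2) := ⟨Nat.prime_two⟩
  haveI : CharP F 2 := charP_of_card_eq_prime_pow (p := 2) (f := 2) (by rw [hF]; rfl)
  have two : (2 : F) = 0 := by exact_mod_cast CharP.cast_eq_zero F 2
  obtain ⟨w, hw⟩ : ∃ w : F, w ∉ ({0, 1} : Finset F) := by
    by_contra hcon
    push Not at hcon
    have : (Finset.univ : Finset F) ⊆ {0, 1} := fun x _ => hcon x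
    have := Finset.card_le_card this
    rw [Finset.card_univ, hF] at this
    have h2 := Finset.card_le_two (a := (0 : F)) (b := 1)
    omega
  simp only [Finset.mem_insert, Finset.mem_singleton, not_or] at hw
  have h4 : w ^ 4 = w := by rw [← hF]; exact FiniteField.pow_card w
  have h3 : w ^ 2 + w + 1 = 0 := by
    have : w * (w - 1) * (w ^ 2 + w + 1) = 0 := by linear_combination h4
    rcases mul_eq_zero.1 this with h | h
    · rcases mul_eq_zero.1 h with h | h
      · exact absurd h hw.1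
      · exact absurd (sub_eq_zero.1 h) hw.2
    · exact h
  refine ⟨w, two, h3, ?_⟩
  have hinj : Function.Injective (fun c : Fin 4 => ev w c.1) := by
    have n01 : (0 : F) ≠ 1 := zero_ne_one
    have n3 : 1 + w ≠ 0 := fun h => hw.2 (by linear_combination h - two)
    have n4 : 1 + w ≠ 1 := fun h => hw.1 (by linear_combination h)
    have n5 : 1 + w ≠ w := fun h => n01 (by linear_combination -h)
    intro a b hab
    fin_cases a <;> fin_cases b <;> simp only [Fin.zero_eta, Fin.mk_one, Fin.reduceFinMk, Fin.val_zero, Fin.val_one, Fin.val_two, Fin.isValue] at hab ⊢ <;>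
      first
        | rfl
        | (exfalso; revert hab; simp only [ev0, ev1, ev2, ev3, show ((3 : Fin 4) : ℕ) = 3 from rfl, show ((2 : Fin 4) : ℕ) = 2 from rfl];
           first
           | exact n01
           | exact n01.symm
           | exact hw.1
           | exact (Ne.symm hw.1)
           | exact hw.2
           | exact (Ne.symm hw.2)
           | exact n3
           | exact n3.symm
           | exact n4
           | exact n4.symm
           | exact n5
           | exact n5.symm)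
  have hbij := (Fintype.bijective_iff_injective_and_card _).2 ⟨hinj, by rw [Fintype.card_fin, hF]⟩
  intro x
  obtain ⟨c, hc⟩ := hbij.2 x
  exact ⟨c.1, c.2, hc⟩

section
variable {w : F} (H : F4 F w)
include H

theorem X_zero {r : ℕ} (hr : r < 12) : X r (0 : F) = 1 := by
  have h := all_range ck1_all hr
  rw [ck1, Bool.and_eq_true] at h
  have h1 := eqw_eq H.two H.hw (by simp) (by simp) h.1
  rw [WX_cons, WX_nil, mul_one, ev0] at h1
  exact h1

theorem X_add {r : ℕ} (hr : r < 12) (t u : F) : X r t * X r u = X r (t + u) := by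
  obtain ⟨a, ha, rfl⟩ := H.sur t
  obtain ⟨b, hb, rfl⟩ := H.sur u
  have h := all_range ck1_all hr
  rw [ck1, Bool.and_eq_true] at h
  have h1 := all_range (all_range h.2 ha) hb
  have hab : a ^^^ b < 4 := Nat.xor_lt_two_pow (n := 2) ha hb
  have h2 := eqw_eq H.two H.hw (by simp [ha, hb]) (by simp [hab]) h1
  rw [WX_cons, WX_cons, WX_cons, WX_nil, mul_one, mul_one, ev_xor H.two] at h2
  exact h2

theorem X_sq {r : ℕ} (hr : r < 12) (t : F) : X r t * X r t = 1 := by
  rw [X_add H hr, ← two_mul, H.two, zero_mul, X_zero H hr]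

/-- the root element as a unit. -/
def U (r : Fin 12) (t : F) : (Module.End F (Fin 6 → F))ˣ := ⟨X r t, X r t, X_sq H r.2 t, X_sq H r.2 t⟩


/-- the map on generators -/
noncomputable def fg (p : Fin chevG2.nroots × F) : (Module.End F (Fin 6 → F))ˣ := U H p.1 p.2

/-- the lift -/
noncomputable def lf : FreeGroup (Fin chevG2.nroots × F) →* (Module.End F (Fin 6 → F))ˣ := FreeGroup.lift (fg H)

theorem lf_stX {r : ℕ} (hr : r < 12) (t : F) : ((lf H (chevG2.stX r t) : (Module.End F (Fin 6 → F))ˣ) : Module.End F (Fin 6 → F)) = X r t := by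
  have hr' : r < chevG2.nroots := hr
  rw [ChevalleyDatum.stX, dif_pos hr', lf, FreeGroup.lift_apply_of]
  rfl

theorem lf_word : ∀ (l : List (ℕ × F)) (_ : ∀ p ∈ l, p.1 < 12),
    ((lf H (chevG2.stWord l) : (Module.End F (Fin 6 → F))ˣ) : Module.End F (Fin 6 → F)) = (l.map fun p => X p.1 p.2).prod
  | [], _ => by
    rw [ChevalleyDatum.stWord]
    simp
  | p :: l, h => by
    have ih := lf_word l (fun q hq => h q (List.mem_cons_of_mem _ hq))
    rw [ChevalleyDatum.stWord] at ih ⊢
    rw [List.map_cons, List.prod_cons, List.map_cons, List.prod_cons, map_mul, Units.val_mul, ih, lf_stX H (h p (List.mem_cons_self ..))]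

theorem rel1 {r : ℕ} (hr : r < 12) (t u : F) : lf H (chevG2.stX r t * chevG2.stX r u * (chevG2.stX r (t + u))⁻¹) = 1 := by
  rw [map_mul, map_inv, mul_inv_eq_one]
  apply Units.ext
  rw [map_mul, Units.val_mul, lf_stX H hr, lf_stX H hr, lf_stX H hr, X_add H hr]

theorem ev_pow {a : ℕ} (ha : a < 4) (n : ℕ) : ev w (powc a n) = ev w a ^ n ∧ powc a n < 4 := by
  induction n with
  | zero => exact ⟨by rw [powc, pow_zero, ev1], by rw [powc]; norm_num⟩
  | succ n ih => exact ⟨by rw [powc, ev_mulc H.two H.hw ih.2 ha, ih.1, pow_succ], by rw [powc]; exact mulc_lt _ _⟩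

omit H in
theorem ic_lt (b : Bool) {c : ℕ} (hc : c < 4) : ic b c < 4 := by
  cases b
  · exact hc
  · exact (by norm_num : 0 < 4)

theorem neg_eq (x : F) : -x = x := by linear_combination (-x) * H.two

theorem cast_even (z : ℤ) (c : ℕ) : ev w (ic (z % 2 == 0) c) = (z : F) * ev w c := by
  rcases Int.emod_two_eq_zero_or_one z with h | h
  · obtain ⟨k, rfl⟩ := Int.dvd_of_emod_eq_zero h
    rw [h]
    push_cast
    rw [H.two]
    simp [ic, ev0]
  · have h1 : z = 2 * (z / 2) + 1 := by omega
    rw [h]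
    have h2 : (z : F) = 1 := by
      rw [h1]; push_cast; rw [H.two]; ring
    rw [h2, one_mul]
    rfl

theorem rel2 {r s : ℕ} (hr : r < 12) (hs : s < 12) (h1 : s ≠ r) (h2 : s ≠ chevG2.neg r) (t u : F) :
    lf H ((chevG2.stX s u)⁻¹ * (chevG2.stX r t)⁻¹ * chevG2.stX s u * chevG2.stX r t * (chevG2.stWord (chevG2.commWord F r s t u))⁻¹) = 1 := by
  rw [map_mul, map_inv, mul_inv_eq_one, map_mul, map_mul, map_mul, map_inv, map_inv, mul_assoc, mul_assoc, inv_mul_eq_iff_eq_mul, inv_mul_eq_iff_eq_mul]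
  apply Units.ext
  have hneg : chevG2.neg r = 11 - r := Nat.eq_of_beq_eq_true (all_range ckn_all hr)
  rw [hneg] at h2
  have hlt : ∀ p ∈ chevG2.commWord F r s t u, p.1 < 12 := by
    intro p hp
    rw [ChevalleyDatum.commWord, List.mem_map] at hp
    obtain ⟨c, hc, rfl⟩ := hp
    have := List.all_eq_true.1 (all_range (all_range ckr_all hr) hs) c hc
    exact of_decide_eq_true this
  rw [Units.val_mul, Units.val_mul, Units.val_mul, lf_stX H hr, lf_stX H hs, lf_word H _ hlt]
  obtain ⟨a, ha, rfl⟩ := H.sur t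
  obtain ⟨b, hb, rfl⟩ := H.sur u
  have hck := ck2_all hr hs
  rw [ck2, Bool.or_eq_true, Bool.or_eq_true, beq_iff_eq, beq_iff_eq] at hck
  rcases hck with (h | h) | h
  · exact absurd h h1
  · exact absurd h h2
  · have h3 := all_range (all_range h ha) hb
    have hc4 : ∀ p ∈ cw r s a b, p.2 < 4 := by
      intro p hp
      rw [cw, List.mem_map] at hp
      obtain ⟨c, -, rfl⟩ := hp
      exact ic_lt _ (mulc_lt _ _)
    have h4 := eqw_eq H.two H.hw (by simp [ha, hb]) (by
      intro p hp
      rw [List.mem_cons, List.mem_cons] at hp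
      rcases hp with rfl | rfl | hp
      · exact ha
      · exact hb
      · exact hc4 p hp) h3
    rw [WX_cons, WX_cons, WX_cons, WX_cons, WX_nil, mul_one] at h4
    have h5 : WX w (cw r s a b) = ((chevG2.commWord F r s (ev w a) (ev w b)).map fun p => X p.1 p.2).prod := by
      rw [WX, cw, ChevalleyDatum.commWord, List.map_map, List.map_map]
      congr 1
      refine List.map_congr_left fun c _ => ?_
      simp only [Function.comp]
      rw [cast_even H, ev_mulc H.two H.hw (ev_pow H ha _).2 (ev_pow H hb _).2, (ev_pow H ha _).1, (ev_pow H hb _).1, neg_eq H, mul_assoc]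
    rw [h5] at h4
    exact h4

theorem ev_inv {a : ℕ} (ha : a < 4) : (ev w a)⁻¹ = ev w (mulc a a) := by
  rw [ev_mulc H.two H.hw ha ha]
  by_cases h : ev w a = 0
  · rw [h]; simp
  · have h3 : ev w a ^ 3 = 1 := by
      have key : ∀ a < 4, a = 0 ∨ mulc a (mulc a a) = 1 := by decide
      rcases key a ha with rfl | h1
      · exact absurd (ev0 w) h
      · have := ev_mulc H.two H.hw ha (mulc_lt a a)
        rw [h1, ev1, ev_mulc H.two H.hw ha ha] at this
        rw [this]; ring
    field_simp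
    linear_combination -h3

theorem lf_h {r : ℕ} (hr : r < 12) {a : ℕ} (ha : a < 4) :
    ((lf H (chevG2.stH r (ev w a)) : (Module.End F (Fin 6 → F))ˣ) : Module.End F (Fin 6 → F)) = WX w (nc r a ++ nc r 1) := by
  have hneg : chevG2.neg r = 11 - r := Nat.eq_of_beq_eq_true (all_range ckn_all hr)
  have hr2 : 11 - r < 12 := by omega
  rw [ChevalleyDatum.stH, lf_word H]
  · rw [ChevalleyDatum.hWord, ChevalleyDatum.nWord, ChevalleyDatum.nWord, hneg, WX_append, List.map_append, List.prod_append]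
    congr 1
    · simp only [nc, WX_cons, WX_nil, List.map_cons, List.map_nil, List.prod_cons, List.prod_nil]
      rw [neg_eq H, ev_inv H ha]
    · simp only [nc, WX_cons, WX_nil, List.map_cons, List.map_nil, List.prod_cons, List.prod_nil]
      have h1 : mulc 1 1 = 1 := by decide
      rw [neg_eq H, neg_eq H, inv_one, h1, ev1]
  · intro p hp
    rw [ChevalleyDatum.hWord, ChevalleyDatum.nWord, ChevalleyDatum.nWord, hneg] at hp
    simp only [List.cons_append, List.nil_append, List.mem_cons, List.not_mem_nil, or_false] at hp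
    rcases hp with rfl | rfl | rfl | rfl | rfl | rfl <;> assumption

theorem rel3 {r : ℕ} (hr : r < 12) {t u : F} (ht : t ≠ 0) (hu : u ≠ 0) :
    lf H (chevG2.stH r t * chevG2.stH r u * (chevG2.stH r (t * u))⁻¹) = 1 := by
  rw [map_mul, map_inv, mul_inv_eq_one, map_mul]
  apply Units.ext
  obtain ⟨a, ha, rfl⟩ := H.sur t
  obtain ⟨b, hb, rfl⟩ := H.sur u
  rw [Units.val_mul, ← ev_mulc H.two H.hw ha hb, lf_h H hr ha, lf_h H hr hb, lf_h H hr (mulc_lt _ _), ← WX_append]
  have h := all_range (all_range (all_range ck3_all hr) ha) hb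
  rw [Bool.or_eq_true, Bool.or_eq_true, beq_iff_eq, beq_iff_eq] at h
  have hn : ∀ c < 4, ∀ p ∈ nc r c ++ nc r 1, p.2 < 4 := by
    intro c hc p hp
    simp only [nc, List.cons_append, List.nil_append, List.mem_cons, List.not_mem_nil, or_false] at hp
    rcases hp with rfl | rfl | rfl | rfl | rfl | rfl <;> first | exact hc | exact mulc_lt _ _ | norm_num
  rcases h with (h | h) | h
  · exact absurd (by rw [h, ev0]) ht
  · exact absurd (by rw [h, ev0]) hu
  · refine eqw_eq H.two H.hw ?_ (hn _ (mulc_lt _ _)) h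
    intro p hp
    rw [List.mem_append] at hp
    rcases hp with hp | hp
    · exact hn a ha p hp
    · exact hn b hb p hp

/-- the homomorphism from the presented group -/
noncomputable def rho0 : chevG2.SteinbergGroup F →* (Module.End F (Fin 6 → F))ˣ :=
  PresentedGroup.toGroup (f := fg H) (by
    intro g hg
    rcases hg with (⟨r, t, u, hr, rfl⟩ | ⟨r, s, t, u, hr, hs, h1, h2, rfl⟩) | ⟨r, t, u, hr, ht, hu, rfl⟩
    · exact rel1 H hr t u
    · exact rel2 H hr hs h1 h2 t u
    · exact rel3 H hr ht hu)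

theorem rho0_gen {r : ℕ} (hr : r < 12) (t : F) : ((rho0 H (chevG2.stGen F r t) : (Module.End F (Fin 6 → F))ˣ) : Module.End F (Fin 6 → F)) = X r t := by
  rw [← lf_stX H hr t]
  rfl

theorem exists_rho : ∃ ρ : chevG2.group F →* Module.End F (Fin 6 → F), ∀ r, r < 12 → ∀ t : F, ∃ g : chevG2.group F, ρ g = X r t := by
  obtain ⟨θ, hs, hk, -⟩ := Cfsg.Agent.S1077.result (K := F) chevG2 (by simp)
  rw [Cfsg.Agent.S1078.result (K := F) chevG2 (by simp)] at hk
  let e : chevG2.SteinbergGroup F ≃* chevG2.group F := MulEquiv.ofBijective θ ⟨(MonoidHom.ker_eq_bot_iff θ).1 hk, hs⟩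
  refine ⟨(Units.coeHom _).comp ((rho0 H).comp e.symm.toMonoidHom), fun r hr t => ⟨e (chevG2.stGen F r t), ?_⟩⟩
  show ((rho0 H (e.symm (e (chevG2.stGen F r t))) : (Module.End F (Fin 6 → F))ˣ) : Module.End F (Fin 6 → F)) = X r t
  rw [MulEquiv.symm_apply_apply, rho0_gen H hr]


/-- a word realised in the group -/
theorem exists_word {ρ : chevG2.group F →* Module.End F (Fin 6 → F)} (hρ : ∀ r, r < 12 → ∀ t : F, ∃ g : chevG2.group F, ρ g = X r t) :
    ∀ (l : List (ℕ × ℕ)) (_ : ∀ p ∈ l, p.1 < 12), ∃ g : chevG2.group F, ρ g = WX w l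
  | [], _ => ⟨1, by rw [map_one]; rfl⟩
  | p :: l, h => by
    obtain ⟨g, hg⟩ := exists_word hρ l (fun q hq => h q (List.mem_cons_of_mem _ hq))
    obtain ⟨a, ha⟩ := hρ p.1 (h p (List.mem_cons_self ..)) (ev w p.2)
    exact ⟨a * g, by rw [map_mul, ha, hg, WX_cons]⟩

omit H in
theorem WX_ne {l : List (ℕ × ℕ)} (H : F4 F w) (hl : ∀ p ∈ l, p.2 < 4) {v : ℕ} (i : Fin 6) (h : gt (run l v) i ≠ gt v i) : WX w l ≠ 1 := by
  intro h1
  have h2 := ev_run H.two H.hw l hl v
  rw [h1] at h2
  have h3 := congrFun h2 i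
  have h4 : ev w (gt (run l v) i) = ev w (gt v i) := h3
  have inj : ∀ a < 4, ∀ b < 4, ev w a = ev w b → a = b := by
    intro a ha b hb hab
    have h5 : ev w (a ^^^ b) = 0 := by rw [ev_xor H.two, hab, ← two_mul, H.two, zero_mul]
    have h6 : ∀ a < 4, ∀ b < 4, a = b ∨ mulc (a ^^^ b) (mulc (a ^^^ b) (a ^^^ b)) = 1 := by decide
    rcases h6 a ha b hb with h | h
    · exact h
    · exfalso
      have hab : a ^^^ b < 4 := Nat.xor_lt_two_pow (n := 2) ha hb
      have h7 := ev_mulc H.two H.hw hab (mulc_lt (a ^^^ b) (a ^^^ b))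
      rw [h, h5, zero_mul, ev1] at h7
      exact one_ne_zero h7
  exact h (inj _ (gt_lt _ _) _ (gt_lt _ _) h4)

end

section final
open scoped Pointwise
variable {G R V : Type*} [Group G] [Finite G] [CommRing R] [AddCommGroup V] [Module R V] [Nontrivial V]

theorem fix_zpow (ρ : G →* Module.End R V) {x : G} {v : V} (h : ρ x v = v) (k : ℤ) : ρ (x ^ k) v = v := by
  have hinv : ρ x⁻¹ v = v := by
    have h1 : ρ x⁻¹ (ρ x v) = v := by
      rw [← Module.End.mul_apply, ← map_mul, inv_mul_cancel, map_one]; rfl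
    rwa [h] at h1
  have hn : ∀ (y : G), ρ y v = v → ∀ n : ℕ, ρ (y ^ n) v = v := by
    intro y hy n
    induction n with
    | zero => rw [pow_zero, map_one]; rfl
    | succ n ih => rw [pow_succ, map_mul, Module.End.mul_apply, hy, ih]
  obtain ⟨n, rfl | rfl⟩ := k.eq_nat_or_neg
  · rw [zpow_natCast]; exact hn x h n
  · rw [zpow_neg, zpow_natCast, ← inv_pow]; exact hn _ hinv n

/-- an element with vanishing power sum of prime order dividing the group order exactly once: every element of order `r` acts without fixed points. -/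
theorem fpf_of_sum (ρ : G →* Module.End R V) (hinj : Function.Injective ρ) {r m : ℕ} (hr : r.Prime) (hcard : Nat.card G = r * m) (hm : ¬ r ∣ m)
    (hrV : ∀ v : V, r • v = 0 → v = 0) (x : G) (hx : ∑ k ∈ Finset.range r, ρ x ^ k = 0) (g : G) (hg : orderOf g = r) (v : V) (hv : ρ g v = v) : v = 0 := by
  haveI : Fact r.Prime := ⟨hr⟩
  have hxr : x ^ r = 1 := by
    apply hinj
    rw [map_pow, map_one]
    have h2 := geom_sum_mul (ρ x) r
    rw [hx, zero_mul] at h2
    exact (sub_eq_zero.1 h2.symm)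
  have hx1 : x ≠ 1 := by
    rintro rfl
    obtain ⟨v, hv⟩ := exists_ne (0 : V)
    apply hv
    apply hrV
    have h2 := congrArg (fun f : Module.End R V => f v) hx
    simp only [map_one, one_pow, Finset.sum_const, Finset.card_range] at h2
    exact h2
  have hox : orderOf x = r := orderOf_eq_prime hxr hx1
  have hf : (Nat.card G).factorization r = 1 := by
    rw [hcard, Nat.factorization_mul hr.ne_zero (by rintro rfl; exact hm (dvd_zero r)), Finsupp.add_apply, hr.factorization_self,
      Nat.factorization_eq_zero_of_not_dvd hm]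
  let P : Sylow r G := Sylow.ofCard (Subgroup.zpowers x) (by rw [Nat.card_zpowers, hox, hf, pow_one])
  let Q : Sylow r G := Sylow.ofCard (Subgroup.zpowers g) (by rw [Nat.card_zpowers, hg, hf, pow_one])
  obtain ⟨h, hh⟩ := MulAction.exists_smul_eq G P Q
  have h1 : (Q : Subgroup G) = MulAut.conj h • (P : Subgroup G) := by rw [← hh]; rfl
  have h2 : g ∈ MulAut.conj h • (P : Subgroup G) := by
    rw [← h1]
    exact Subgroup.mem_zpowers g
  rw [Subgroup.mem_pointwise_smul_iff_inv_smul_mem] at h2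
  obtain ⟨k, hk⟩ := Subgroup.mem_zpowers_iff.1 (show _ ∈ Subgroup.zpowers x from h2)
  have hk' : h⁻¹ * g * h = x ^ k := by
    rw [hk]
    simp [MulAut.smul_def, ← map_inv]
  set u := ρ h⁻¹ v with hu
  have hfix : ρ (x ^ k) u = u := by
    rw [← hk', hu, ← Module.End.mul_apply, ← map_mul, mul_assoc, mul_inv_cancel, mul_one, map_mul, Module.End.mul_apply, hv]
  have hne : x ^ k ≠ 1 := by
    intro h0
    rw [h0] at hk'
    have : g = 1 := by
      have := congrArg (fun t => h * t * h⁻¹) hk'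
      simpa [mul_assoc] using this
    rw [this, orderOf_one] at hg
    exact hr.one_lt.ne hg
  have hmem : x ∈ Subgroup.zpowers (x ^ k) := by
    have h3 : Subgroup.zpowers (x ^ k) ≤ Subgroup.zpowers x := by
      rw [Subgroup.zpowers_le]; exact Subgroup.zpow_mem _ (Subgroup.mem_zpowers x) k
    have h4 : orderOf (x ^ k) = r := by
      refine orderOf_eq_prime ?_ hne
      rw [← zpow_natCast, ← zpow_mul, mul_comm, zpow_mul, zpow_natCast, hxr, one_zpow]
    have h5 : Subgroup.zpowers (x ^ k) = Subgroup.zpowers x := by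
      apply Subgroup.eq_of_le_of_card_ge h3
      rw [Nat.card_zpowers, Nat.card_zpowers, h4, hox]
    rw [h5]; exact Subgroup.mem_zpowers x
  obtain ⟨j, hj⟩ := Subgroup.mem_zpowers_iff.1 hmem
  have hxu : ρ x u = u := by
    have := fix_zpow ρ hfix j
    rwa [hj] at this
  have hu0 : u = 0 := by
    apply hrV
    have h6 : (∑ k ∈ Finset.range r, ρ x ^ k) u = 0 := by rw [hx]; rfl
    rw [LinearMap.sum_apply] at h6
    have h7 : ∀ i ∈ Finset.range r, (ρ x ^ i) u = u := by
      intro i _
      have := fix_zpow ρ hxu i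
      rwa [zpow_natCast, map_pow] at this
    rw [Finset.sum_congr rfl h7, Finset.sum_const, Finset.card_range] at h6
    exact h6
  have : v = ρ h u := by
    rw [hu, ← Module.End.mul_apply, ← map_mul, mul_inv_cancel, map_one]; rfl
  rw [this, hu0, map_zero]

end final

section main
variable {F : Type*} [Field F] [Fintype F]

theorem prime_cases {r : ℕ} (hr : r.Prime) (h : r ∣ 4 ^ 6 * (4 ^ 2 - 1) * (4 ^ 6 - 1)) (h2 : r ≠ 2) : r = 3 ∨ r = 5 ∨ r = 7 ∨ r = 13 := by
  have e : 4 ^ 6 * (4 ^ 2 - 1) * (4 ^ 6 - 1) = 2 ^ 12 * (3 ^ 3 * (5 ^ 2 * (7 * 13))) := by norm_num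
  rw [e, hr.dvd_mul, hr.dvd_mul, hr.dvd_mul, hr.dvd_mul] at h
  rcases h with h | h | h | h | h
  · exact absurd ((Nat.prime_dvd_prime_iff_eq hr Nat.prime_two).1 (hr.dvd_of_dvd_pow h)) h2
  · exact Or.inl ((Nat.prime_dvd_prime_iff_eq hr Nat.prime_three).1 (hr.dvd_of_dvd_pow h))
  · exact Or.inr (Or.inl ((Nat.prime_dvd_prime_iff_eq hr Nat.prime_five).1 (hr.dvd_of_dvd_pow h)))
  · exact Or.inr (Or.inr (Or.inl ((Nat.prime_dvd_prime_iff_eq hr (by norm_num)).1 h)))
  · exact Or.inr (Or.inr (Or.inr ((Nat.prime_dvd_prime_iff_eq hr (by norm_num)).1 h)))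

theorem main (hF : Fintype.card F = 4) : ∃ ρ : chevG2.group F →* Module.End F (Fin 6 → F), Function.Injective ρ ∧
    ∀ (g : chevG2.group F) (r : ℕ), r.Prime → r ≠ 2 → orderOf g = r → (∃ v : Fin 6 → F, v ≠ 0 ∧ ρ g v = v) →
      ∃ g' : chevG2.group F, orderOf g' = 2 * r := by
  classical
  obtain ⟨w, H⟩ := exists_F4 hF
  obtain ⟨ρ, hρ⟩ := exists_rho H
  have hw1 : w ≠ 1 := by
    rintro rfl
    have h1 := H.hw
    have h2 := H.two
    have : (1 : F) = 0 := by linear_combination h1 - h2
    exact one_ne_zero this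
  have hw0 : w ≠ 0 := by
    rintro rfl
    have h1 := H.hw
    simp at h1
  have hsimple := (Cfsg.Agent.S1055.result (F := F) ⟨w, hw0, hw1⟩).1
  haveI := hsimple
  have hcard := Cfsg.Agent.S1059.result (F := F) hF
  have hfin : Finite (chevG2.group F) := by
    apply Nat.finite_of_card_ne_zero
    rw [hcard]; norm_num
  obtain ⟨g2, hg2⟩ := exists_word H hρ w2 (by decide)
  have hne2 : WX w w2 ≠ 1 := WX_ne H (by decide) (v := 1 <<< 8) 0 (by decide +kernel)
  have hinj : Function.Injective ρ := by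
    rw [← MonoidHom.ker_eq_bot_iff]
    rcases hsimple.eq_bot_or_eq_top_of_normal ρ.ker inferInstance with h | h
    · exact h
    · exfalso
      have : g2 ∈ ρ.ker := by rw [h]; trivial
      rw [MonoidHom.mem_ker, hg2] at this
      exact hne2 this
  refine ⟨ρ, hinj, ?_⟩
  have o2 : orderOf g2 = 2 := by
    haveI : Fact (Nat.Prime 2) := ⟨Nat.prime_two⟩
    refine orderOf_eq_prime ?_ (fun h => hne2 (by rw [← hg2, h, map_one]))
    apply hinj
    rw [map_pow, hg2, map_one, sq, ← WX_append]
    exact eqw_eq H.two H.hw (by decide) (by decide) ckw2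
  have hV : ∀ r : ℕ, Odd r → ∀ v : Fin 6 → F, r • v = 0 → v = 0 := by
    rintro r ⟨k, rfl⟩ v hv
    rw [add_smul, one_smul, mul_comm, mul_smul] at hv
    have h2 : (2 : ℕ) • v = 0 := by
      funext i
      rw [Pi.smul_apply, two_nsmul, ← two_mul, H.two, zero_mul]; rfl
    rwa [h2, smul_zero, zero_add] at hv
  intro g r hr hr2 hg ⟨v, hv0, hv⟩
  have hdvd : r ∣ 4 ^ 6 * (4 ^ 2 - 1) * (4 ^ 6 - 1) := by
    rw [← hcard, ← hg]; exact orderOf_dvd_natCard g
  rcases prime_cases hr hdvd hr2 with rfl | rfl | rfl | rfl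
  · obtain ⟨g3, hg3⟩ := exists_word H hρ w3 (by decide)
    have hne3 : WX w w3 ≠ 1 := WX_ne H (by decide) (v := 1 <<< 6) 2 (by decide +kernel)
    have o3 : orderOf g3 = 3 := by
      haveI : Fact (Nat.Prime 3) := ⟨Nat.prime_three⟩
      refine orderOf_eq_prime ?_ (fun h => hne3 (by rw [← hg3, h, map_one]))
      apply hinj
      rw [map_pow, hg3, map_one, pow_succ, sq, ← WX_append, ← WX_append]
      exact eqw_eq H.two H.hw (by decide) (by decide) ckw3
    have hc : Commute g2 g3 := by
      apply hinj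
      rw [map_mul, map_mul, hg2, hg3, ← WX_append, ← WX_append]
      exact eqw_eq H.two H.hw (by decide) (by decide) ckc3
    exact ⟨g2 * g3, by rw [hc.orderOf_mul_eq_mul_orderOf_of_coprime (by rw [o2, o3]; norm_num), o2, o3]⟩
  · obtain ⟨g5, hg5⟩ := exists_word H hρ w5 (by decide)
    have hne5 : WX w w5 ≠ 1 := WX_ne H (by decide) (v := 1 <<< 6) 2 (by decide +kernel)
    have o5 : orderOf g5 = 5 := by
      haveI : Fact (Nat.Prime 5) := ⟨Nat.prime_five⟩
      refine orderOf_eq_prime ?_ (fun h => hne5 (by rw [← hg5, h, map_one]))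
      apply hinj
      rw [map_pow, hg5, map_one, pow_succ, pow_succ, pow_succ, sq, ← WX_append, ← WX_append, ← WX_append, ← WX_append]
      exact eqw_eq H.two H.hw (by decide) (by decide) ckw5
    have hc : Commute g2 g5 := by
      apply hinj
      rw [map_mul, map_mul, hg2, hg5, ← WX_append, ← WX_append]
      exact eqw_eq H.two H.hw (by decide) (by decide) ckc5
    exact ⟨g2 * g5, by rw [hc.orderOf_mul_eq_mul_orderOf_of_coprime (by rw [o2, o5]; norm_num), o2, o5]⟩
  · exfalso
    obtain ⟨g7, hg7⟩ := exists_word H hρ w7 (by decide)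
    refine hv0 (fpf_of_sum ρ hinj (m := 4 ^ 6 * 15 * 585) hr (by rw [hcard]; norm_num) (by norm_num) (hV 7 (by decide)) g7 ?_ g hg v hv)
    rw [hg7]
    exact ckp_eq H.two H.hw (by decide) ck7
  · exfalso
    obtain ⟨g13, hg13⟩ := exists_word H hρ w13 (by decide)
    refine hv0 (fpf_of_sum ρ hinj (m := 4 ^ 6 * 15 * 315) hr (by rw [hcard]; norm_num) (by norm_num) (hV 13 (by decide)) g13 ?_ g hg v hv)
    rw [hg13]
    exact ckp_eq H.two H.hw (by decide) ck13

end main

end Cfsg.Agent.H15.G2R
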