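import Cfsg.Agent.H6_EvG2
import Cfsg.Agent.S1055
import Cfsg.Agent.S1059

set_option autoImplicit false
set_option maxRecDepth 100000

/-! Elements of order 7 and 13 in `G₂(3)`. -/

namespace Cfsg.Agent.H15.G3

open Cfsg Cfsg.Lie Cfsg.Lie.ChevalleyDatum Cfsg.Agent.H6.Chev Cfsg.Agent.H6.Chev.Ev
open scoped Matrix Polynomial

section lin
variable {F V : Type*} [Field F] [Fintype F] [AddCommGroup V] [Module F V]

theorem aeval_pow_card (T : Module.End F V) (p : F[X]) (k : ℕ) :
    (Polynomial.aeval T p) ^ (Fintype.card F ^ k) = Polynomial.aeval (T ^ (Fintype.card F ^ k)) p := by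
  induction k with
  | zero => simp
  | succ k ih =>
    rw [pow_succ (Fintype.card F), pow_mul, ih, pow_mul, ← map_pow, ← FiniteField.expand_card, Polynomial.expand_aeval]

theorem comm_pow {T U : Module.End F V} (hc : Commute T U) (v0 : V) (W : Submodule F V)
    (hW : ∀ w ∈ W, ∃ p : F[X], Polynomial.aeval T p v0 = w) (hU : U v0 ∈ W) {k : ℕ}
    (hT : T ^ (Fintype.card F ^ k) = T) : ∀ w ∈ W, (U ^ (Fintype.card F ^ k)) w = U w := by
  obtain ⟨p, hp⟩ := hW _ hU
  have hcU : ∀ r : F[X], Commute (Polynomial.aeval T r) U := fun r => by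
    rw [Polynomial.aeval_eq_sum_range]
    refine Commute.sum_left _ _ _ fun i _ => ?_
    exact (hc.pow_left i).smul_left _
  have hcP : ∀ r s : F[X], Commute (Polynomial.aeval T r) (Polynomial.aeval T s) := fun r s => by
    rw [Commute, SemiconjBy, ← map_mul, ← map_mul, mul_comm]
  have key : ∀ n : ℕ, ∀ r : F[X], (U ^ n) (Polynomial.aeval T r v0) = ((Polynomial.aeval T p) ^ n) (Polynomial.aeval T r v0) := by
    intro n
    induction n with
    | zero => intro r; rfl
    | succ n ih =>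
      intro r
      have h1 : U (Polynomial.aeval T r v0) = Polynomial.aeval T (r * p) v0 := by
        rw [← Module.End.mul_apply, ← (hcU r).eq, Module.End.mul_apply, ← hp, ← Module.End.mul_apply, ← map_mul]
      rw [pow_succ, Module.End.mul_apply, h1, ih, pow_succ, Module.End.mul_apply, ← Module.End.mul_apply (Polynomial.aeval T p), ← map_mul, mul_comm p r]
  intro w hw
  obtain ⟨r, hr⟩ := hW _ hw
  rw [← hr, key, aeval_pow_card, hT]
  have := key 1 r
  rw [pow_one, pow_one] at this
  exact this.symm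

end lin

section conj
variable {G : Type*} [Group G] [Finite G]
open scoped Pointwise

theorem conj_zpowers {r m : ℕ} (hr : r.Prime) (hcard : Nat.card G = r * m) (hm : ¬ r ∣ m) {x g : G} (hx : orderOf x = r) (hg : orderOf g = r) :
    ∃ h : G, Subgroup.zpowers (h⁻¹ * g * h) = Subgroup.zpowers x := by
  haveI : Fact r.Prime := ⟨hr⟩
  have hf : (Nat.card G).factorization r = 1 := by
    rw [hcard, Nat.factorization_mul hr.ne_zero (by rintro rfl; exact hm (dvd_zero r)), Finsupp.add_apply, hr.factorization_self,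
      Nat.factorization_eq_zero_of_not_dvd hm]
  let P : Sylow r G := Sylow.ofCard (Subgroup.zpowers x) (by rw [Nat.card_zpowers, hx, hf, pow_one])
  let Q : Sylow r G := Sylow.ofCard (Subgroup.zpowers g) (by rw [Nat.card_zpowers, hg, hf, pow_one])
  obtain ⟨h, hh⟩ := MulAction.exists_smul_eq G P Q
  have h1 : (Q : Subgroup G) = MulAut.conj h • (P : Subgroup G) := by rw [← hh]; rfl
  have h2 : g ∈ MulAut.conj h • (P : Subgroup G) := by
    rw [← h1]
    exact Subgroup.mem_zpowers g
  rw [Subgroup.mem_pointwise_smul_iff_inv_smul_mem] at h2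
  have h3 : h⁻¹ * g * h ∈ Subgroup.zpowers x := by
    have h4 : (MulAut.conj h)⁻¹ • g ∈ Subgroup.zpowers x := h2
    simpa [MulAut.smul_def, ← map_inv] using h4
  refine ⟨h, ?_⟩
  apply Subgroup.eq_of_le_of_card_ge
  · rw [Subgroup.zpowers_le]; exact h3
  · rw [Nat.card_zpowers, Nat.card_zpowers, hx]
    have h5 : orderOf (h⁻¹ * g * h) = orderOf g := by
      have := MulEquiv.orderOf_eq (MulAut.conj h⁻¹) g
      simpa using this
    rw [h5, hg]

/-- if everything commuting with a fixed element `x` of order `r` (`r ∥ |G|`) has order dividing `n`, then there is no element of order `r * s`. -/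
theorem no_mul {r m n s : ℕ} (hr : r.Prime) (hs : s.Prime) (hrs : r ≠ s) (hcard : Nat.card G = r * m) (hm : ¬ r ∣ m) {x : G} (hx : orderOf x = r)
    (hn : ∀ g : G, Commute x g → g ^ n = 1) (hsn : ¬ s ∣ n) : ¬ ∃ y : G, orderOf y = r * s := by
  rintro ⟨y, hy⟩
  have h1 : orderOf (y ^ s) = r := by
    rw [orderOf_pow_of_dvd hs.ne_zero (by rw [hy]; exact Dvd.intro_left _ rfl), hy, Nat.mul_div_cancel _ hs.pos]
  have h2 : orderOf (y ^ r) = s := by
    rw [orderOf_pow_of_dvd hr.ne_zero (by rw [hy]; exact Dvd.intro _ rfl), hy, Nat.mul_div_cancel_left _ hr.pos]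
  obtain ⟨h, hh⟩ := conj_zpowers hr hcard hm hx h1
  have hmem : x ∈ Subgroup.zpowers (h⁻¹ * y ^ s * h) := by rw [hh]; exact Subgroup.mem_zpowers x
  obtain ⟨j, hj⟩ := Subgroup.mem_zpowers_iff.1 hmem
  have hc : Commute (h⁻¹ * y ^ s * h) (h⁻¹ * y ^ r * h) := by
    have : y ^ s * y ^ r = y ^ r * y ^ s := by rw [← pow_add, ← pow_add, add_comm]
    rw [Commute, SemiconjBy]
    calc h⁻¹ * y ^ s * h * (h⁻¹ * y ^ r * h) = h⁻¹ * (y ^ s * y ^ r) * h := by group
      _ = h⁻¹ * (y ^ r * y ^ s) * h := by rw [this]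
      _ = _ := by group
  have hc' : Commute x (h⁻¹ * y ^ r * h) := by rw [← hj]; exact hc.zpow_left j
  have h3 := hn _ hc'
  have h4 : orderOf (h⁻¹ * y ^ r * h) = s := by
    have := MulEquiv.orderOf_eq (MulAut.conj h⁻¹) (y ^ r)
    rw [← h2, ← this]; simp
  exact hsn (h4 ▸ orderOf_dvd_of_pow_eq_one h3)

end conj

end Cfsg.Agent.H15.G3
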