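import Cfsg.Agent.H15_G3a

set_option autoImplicit false
set_option maxRecDepth 100000

/-! Elements of order 7 and 13 in `G₂(3)`. -/

namespace Cfsg.Agent.H15.G3

open Cfsg Cfsg.Lie Cfsg.Lie.ChevalleyDatum Cfsg.Agent.H6.Chev Cfsg.Agent.H6.Chev.Ev
open scoped Matrix Polynomial

def w7 : List (ℕ × ℤ) := [(4, 1), (5, 1), (7, -1), (6, -1)]
def w13 : List (ℕ × ℤ) := [(4, 1), (5, 1), (7, 1), (6, -1)]

def Sl : List ℕ := [0, 4, 5, 6, 9, 10, 11]

def c7 : List (List ℕ) := [[1, 0, 0, 0, 0, 0, 0], [0, 0, 0, 0, 0, 1, 1], [1, 0, 0, 0, 0, 0, 1], [1, 0, 0, 0, 1, 0, 0], [2, 2, 0, 0, 0, 0, 0], [0, 1, 0, 2, 0, 0, 0], [0, 2, 2, 0, 0, 0, 0]]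
def c13 : List (List ℕ) := [[1, 0, 0, 0, 0, 0, 0], [2, 2, 0, 0, 1, 1, 2], [2, 2, 2, 1, 1, 0, 0], [2, 0, 1, 1, 2, 2, 0], [1, 1, 2, 2, 1, 1, 0], [0, 2, 1, 1, 2, 2, 1], [0, 1, 0, 2, 0, 1, 0]]

def orb (w : List (ℕ × ℤ)) : ℕ → List ℕ
  | 0 => uv 14 0
  | n + 1 => evalW 3 TG2 w (orb w n)

def cmb (w : List (ℕ × ℤ)) (c : List ℕ) (i : ℕ) : ℕ := ((List.range 7).map fun k => c.getD k 0 * (orb w k).getD i 0).sum

def ckc (w : List (ℕ × ℤ)) (c : List (List ℕ)) : Bool := (List.range 7).all fun s => (List.range 14).all fun i =>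
  Nat.beq (cmb w (c.getD s []) i % 3) (bif Nat.beq i (Sl.getD s 0) then 1 else 0)

def okw (w : List (ℕ × ℤ)) : Bool := w.all (fun q => decide (q.1 < 12) && (decide (q.2 = 1) || decide (q.2 = -1)))

def rep (w : List (ℕ × ℤ)) : ℕ → List (ℕ × ℤ)
  | 0 => []
  | n + 1 => w ++ rep w n

def ckinv : Bool := (List.range 12).all fun r => [0, 1, -1].all fun t => (List.range 14).all fun a => (List.range 14).all fun b =>
  decide (a ∈ Sl) || !decide (b ∈ Sl) || decide (xI chevG2 r t a b % 3 = 0)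

theorem ckinv_eq : ckinv = true := by decide +kernel
theorem ok7 : okw w7 = true := by decide +kernel
theorem ok13 : okw w13 = true := by decide +kernel

theorem ckc7 : ckc w7 c7 = true := by decide +kernel
theorem ckc13 : ckc w13 c13 = true := by decide +kernel
theorem cko7 : (okw (rep w7 7) && (okw [] && ckEq 3 14 TG2 (rep w7 7) [])) = true := by decide +kernel

theorem cko13 : (okw (rep w13 13) && (okw [] && ckEq 3 14 TG2 (rep w13 13) [])) = true := by decide +kernel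

end Cfsg.Agent.H15.G3
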