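import Cfsg.Agent.H15_G3b

set_option autoImplicit false
set_option maxRecDepth 100000

/-! Elements of order 7 and 13 in `G₂(3)`. -/

namespace Cfsg.Agent.H15.G3

open Cfsg Cfsg.Lie Cfsg.Lie.ChevalleyDatum Cfsg.Agent.H6.Chev Cfsg.Agent.H6.Chev.Ev
open scoped Matrix Polynomial

variable {F : Type*} [Field F] [Fintype F]

abbrev V (F : Type*) := chevG2.Idx → F

/-- the natural action. -/
noncomputable def rho (F : Type*) [Field F] : GL chevG2.Idx F →* Module.End F (chevG2.Idx → F) :=
  (Matrix.toLinAlgEquiv' (R := F) (n := chevG2.Idx)).toAlgHom.toRingHom.toMonoidHom.comp (Units.coeHom _)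

theorem rho_apply (g : GL chevG2.Idx F) (v : chevG2.Idx → F) : rho F g v = (g : Matrix chevG2.Idx chevG2.Idx F) *ᵥ v := rfl

/-- the submodule spanned by the short root vectors and a coroot. -/
def W (F : Type*) [Field F] : Submodule F (chevG2.Idx → F) where
  carrier := {v | ∀ i, code chevG2 i ∉ Sl → v i = 0}
  add_mem' := by
    intro a b ha hb i hi
    rw [Pi.add_apply, ha i hi, hb i hi, add_zero]
  zero_mem' := fun i _ => rfl
  smul_mem' := by
    intro c a ha i hi
    rw [Pi.smul_apply, ha i hi, smul_zero]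

theorem code_lt (i : chevG2.Idx) : code chevG2 i < 14 := by
  rcases i with i | s
  · have := i.2; rw [code_inl]; exact lt_of_lt_of_le this (by decide)
  · have := s.2; rw [code_inr]
    have h : chevG2.rank = 2 := rfl
    have h' : chevG2.nroots = 12 := rfl
    omega

theorem code_inj : Function.Injective (code chevG2) := by
  rintro (i | s) (j | s') h
  · rw [code_inl, code_inl] at h; rw [Fin.ext h]
  · rw [code_inl, code_inr] at h; have := i.2; omega
  · rw [code_inr, code_inl] at h; have := j.2; omega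
  · rw [code_inr, code_inr] at h; rw [Fin.ext (by omega : (s : ℕ) = s')]

theorem all_range {n : ℕ} {f : ℕ → Bool} (h : (List.range n).all f = true) {r : ℕ} (hr : r < n) : f r = true :=
  List.all_eq_true.1 h r (List.mem_range.2 hr)

theorem three (hF : Fintype.card F = 3) : (3 : F) = 0 := by
  have h := FiniteField.cast_card_eq_zero F
  rw [hF] at h
  exact_mod_cast h

theorem cases3 (hF : Fintype.card F = 3) (t : F) : ∃ z : ℤ, z ∈ [0, 1, -1] ∧ t = (z : F) := by
  classical
  have h3 := three hF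
  have h4 : t ^ 3 = t := by rw [← hF]; exact FiniteField.pow_card t
  have : t * (t - 1) * (t + 1) = 0 := by linear_combination h4
  rcases mul_eq_zero.1 this with h | h
  · rcases mul_eq_zero.1 h with h | h
    · exact ⟨0, by simp, by rw [h]; simp⟩
    · exact ⟨1, by simp, by rw [sub_eq_zero.1 h]; simp⟩
  · exact ⟨-1, by simp, by rw [eq_neg_of_add_eq_zero_left h]; simp⟩

theorem rho_W (hF : Fintype.card F = 3) {g : GL chevG2.Idx F} (hg : g ∈ chevG2.group F) : ∀ v ∈ W F, rho F g v ∈ W F := by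
  rw [modelG2.group_eq] at hg
  refine modelG2.gen_induction (p := fun g => ∀ v ∈ W F, rho F g v ∈ W F) (fun v hv => by rw [map_one]; exact hv) ?_ hg
  intro r hr _ t g _ ih v hv
  rw [map_mul, Module.End.mul_apply]
  have h1 := ih v hv
  generalize rho F g v = u at h1
  intro i hi
  rw [rho_apply, modelG2.coe_X]
  obtain ⟨z, hz, rfl⟩ := cases3 hF t
  have hck := ckinv_eq
  rw [ckinv] at hck
  have h2 := List.all_eq_true.1 (all_range hck hr) z hz
  show ∑ j, chevG2.x F r (z : F) i j * u j = 0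
  refine Finset.sum_eq_zero fun j _ => ?_
  by_cases hj : code chevG2 j ∈ Sl
  · have h3 := all_range (all_range h2 (code_lt i)) (code_lt j)
    rw [Bool.or_eq_true, Bool.or_eq_true, decide_eq_true_eq, decide_eq_true_eq, Bool.not_eq_true', decide_eq_false_iff_not] at h3
    rcases h3 with (h3 | h3) | h3
    · exact absurd h3 hi
    · exact absurd hj h3
    · rw [x_eq hr z i j]
      obtain ⟨k, hk⟩ := Int.dvd_of_emod_eq_zero h3
      rw [hk]; push_cast
      rw [three hF, zero_mul, zero_mul]
  · rw [h1 j hj, mul_zero]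

theorem two_sub (hF : Fintype.card F = 3) {G0 : Subgroup (GL chevG2.Idx F)} (hG : G0 = chevG2.group F) (hs : IsSimpleGroup G0)
    (g : G0) (hg : ∀ w ∈ W F, rho F g.1 w = w) (x : G0) (w0 : chevG2.Idx → F) (hw0 : w0 ∈ W F) (hx : rho F x.1 w0 ≠ w0) : g = 1 := by
  let K : Subgroup G0 :=
    { carrier := {g | ∀ w ∈ W F, rho F g.1 w = w}
      mul_mem' := by
        intro a b ha hb w hw
        rw [Subgroup.coe_mul, map_mul, Module.End.mul_apply, hb w hw, ha w hw]
      one_mem' := by
        intro w hw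
        rw [Subgroup.coe_one, map_one]; rfl
      inv_mem' := by
        intro a ha w hw
        have h1 := ha w hw
        have h2 : rho F (a⁻¹ : G0).1 (rho F a.1 w) = w := by
          rw [← Module.End.mul_apply, ← map_mul, ← Subgroup.coe_mul, inv_mul_cancel, Subgroup.coe_one, map_one]; rfl
        rwa [h1] at h2 }
  have hN : K.Normal := by
    constructor
    intro n hn a w hw
    have h1 : rho F (a⁻¹ : G0).1 w ∈ W F := rho_W hF (hG ▸ (a⁻¹).2) w hw
    rw [Subgroup.coe_mul, Subgroup.coe_mul, map_mul, map_mul, Module.End.mul_apply, Module.End.mul_apply, hn _ h1, ← Module.End.mul_apply,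
      ← map_mul, ← Subgroup.coe_mul, mul_inv_cancel, Subgroup.coe_one, map_one]; rfl
  rcases hs.eq_bot_or_eq_top_of_normal K hN with h | h
  · have : g ∈ K := hg
    rw [h, Subgroup.mem_bot] at this
    exact this
  · exfalso
    have : x ∈ K := by rw [h]; trivial
    exact hx (this w0 hw0)

/-- `single i 1` for codes. -/
theorem mem_of_ckc (hF : Fintype.card F = 3) {w : List (ℕ × ℤ)} {c : List (List ℕ)} (hok : okw w = true) (hc : ckc w c = true) :
    ∀ u ∈ W F, ∃ p : F[X], Polynomial.aeval (rho F (modelG2.word (w.map fun q => (q.1, (q.2 : F))))) p (vec chevG2 F (uv 14 0)) = u := by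
  set T := rho F (modelG2.word (w.map fun q => (q.1, (q.2 : F)))) with hT
  have hp : ((3 : ℕ) : F) = 0 := by exact_mod_cast three hF
  have hq : ∀ q ∈ w, ckM chevG2 3 q.1 q.2 (TG2 q.1 q.2) = true := by
    intro q hq
    have h := List.all_eq_true.1 hok q hq
    rw [Bool.and_eq_true, Bool.or_eq_true, decide_eq_true_eq, decide_eq_true_eq, decide_eq_true_eq] at h
    obtain ⟨h1, h2 | h2⟩ := h
    · rw [h2]; exact List.all_eq_true.1 tG2_ckP q.1 (List.mem_range.2 h1)
    · rw [h2]; exact List.all_eq_true.1 tG2_ckN q.1 (List.mem_range.2 h1)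
  have horb : ∀ n, (T ^ n) (vec chevG2 F (uv 14 0)) = vec chevG2 F (orb w n) := by
    intro n
    induction n with
    | zero => rfl
    | succ n ih =>
      rw [pow_succ', Module.End.mul_apply, ih, orb, hT, rho_apply]
      exact evalW_eq modelG2 hp hq _
  let R : Submodule F (chevG2.Idx → F) := LinearMap.range ((LinearMap.applyₗ (vec chevG2 F (uv 14 0))).comp (Polynomial.aeval (R := F) T).toLinearMap)
  have hs : ∀ i : chevG2.Idx, code chevG2 i ∈ Sl → (Pi.single i 1 : chevG2.Idx → F) ∈ R := by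
    intro i hi
    obtain ⟨s, hs7, hsi⟩ : ∃ s < 7, Sl.getD s 0 = code chevG2 i := by
      have : ∀ a ∈ Sl, ∃ s < 7, Sl.getD s 0 = a := by decide
      exact this _ hi
    refine ⟨∑ k ∈ Finset.range 7, Polynomial.C ((((c.getD s []).getD k 0 : ℕ) : F)) * Polynomial.X ^ k, ?_⟩
    show Polynomial.aeval T _ (vec chevG2 F (uv 14 0)) = _
    rw [map_sum, LinearMap.sum_apply]
    simp only [map_mul, Polynomial.aeval_C, map_pow, Polynomial.aeval_X, Module.End.mul_apply, horb]
    funext j
    have h3 := all_range (all_range hc hs7) (code_lt j)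
    have h4 := Nat.eq_of_beq_eq_true h3
    rw [Finset.sum_apply]
    have h5 : ∀ k ∈ Finset.range 7, (algebraMap F (Module.End F (chevG2.Idx → F)) ((((c.getD s []).getD k 0 : ℕ) : F))) (vec chevG2 F (orb w k)) j =
        (((c.getD s []).getD k 0 * (orb w k).getD (code chevG2 j) 0 : ℕ) : F) := by
      intro k _
      rw [Module.algebraMap_end_apply, Pi.smul_apply, smul_eq_mul, Nat.cast_mul]; rfl
    rw [Finset.sum_congr rfl h5, ← Nat.cast_sum]
    have h6 : ∑ k ∈ Finset.range 7, (c.getD s []).getD k 0 * (orb w k).getD (code chevG2 j) 0 = cmb w (c.getD s []) (code chevG2 j) := by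
      rw [cmb, Finset.sum_range_succ, Finset.sum_range_succ, Finset.sum_range_succ, Finset.sum_range_succ, Finset.sum_range_succ, Finset.sum_range_succ,
        Finset.sum_range_one]
      simp only [List.range_succ, List.range_zero, List.map_append, List.map_cons, List.map_nil, List.sum_append, List.sum_cons, List.sum_nil, List.nil_append]
      ring
    rw [h6]
    have hcast : ∀ n : ℕ, ((n % 3 : ℕ) : F) = (n : F) := by
      intro n
      conv_rhs => rw [← Nat.mod_add_div n 3]
      push_cast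
      rw [three hF, zero_mul, add_zero]
    rw [← hcast, h4, hsi]
    by_cases hij : j = i
    · subst hij
      rw [Pi.single_eq_same]
      have : Nat.beq (code chevG2 j) (code chevG2 j) = true := Nat.beq_refl _
      rw [this]; simp
    · rw [Pi.single_eq_of_ne hij]
      have : Nat.beq (code chevG2 j) (code chevG2 i) = false := by
        cases hb : Nat.beq (code chevG2 j) (code chevG2 i) with
        | false => rfl
        | true => exact absurd (code_inj (Nat.eq_of_beq_eq_true hb)) hij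
      rw [this]; simp
  intro u hu
  have : u ∈ R := by
    rw [pi_eq_sum_univ' u]
    refine Submodule.sum_mem _ fun i _ => ?_
    by_cases hi : code chevG2 i ∈ Sl
    · exact Submodule.smul_mem _ _ (hs i hi)
    · rw [hu i hi, zero_smul]; exact Submodule.zero_mem _
  obtain ⟨p, hp'⟩ := this
  exact ⟨p, hp'⟩


theorem exists_elt (hF : Fintype.card F = 3) {r : ℕ} (hr : r.Prime) {w : List (ℕ × ℤ)} {c : List (List ℕ)} {k : ℕ} (hk : 3 ^ k % r = 1) (hok : okw w = true) (hc : ckc w c = true)
    (ho : (okw (rep w r) && (okw [] && ckEq 3 14 TG2 (rep w r) [])) = true) (hne' : (evalW 3 TG2 w (uv 14 0)).getD 0 0 % 3 ≠ 1) :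
    ∃ x : ↥(chevG2.group F), orderOf x = r ∧ ∀ g : ↥(chevG2.group F), Commute x g → g ^ (3 ^ k - 1) = 1 := by
  haveI : Fact r.Prime := ⟨hr⟩
  haveI : Fact (Nat.Prime 3) := ⟨Nat.prime_three⟩
  haveI : CharP F 3 := charP_of_card_eq_prime_pow (p := 3) (f := 1) (by rw [hF]; rfl)
  have hrep : ∀ n, modelG2.word ((rep w n).map fun q => (q.1, (q.2 : F))) = modelG2.word (w.map fun q => (q.1, (q.2 : F))) ^ n := by
    intro n
    induction n with
    | zero => rfl
    | succ n ih => rw [rep, List.map_append, Model.word_append, ih, pow_succ']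
  have hmem : modelG2.word (w.map fun q => (q.1, (q.2 : F))) ∈ chevG2.group F := by
    rw [modelG2.group_eq]
    exact modelG2.word_mem_gen (fun _ _ => trivial)
  set x : ↥(chevG2.group F) := ⟨modelG2.word (w.map fun q => (q.1, (q.2 : F))), hmem⟩ with hx
  have hxr : x ^ r = 1 := by
    apply Subtype.ext
    rw [Subgroup.coe_pow, Subgroup.coe_one]
    show modelG2.word (w.map fun q => (q.1, (q.2 : F))) ^ r = 1
    rw [← hrep]
    have := wordG2_eq (K := F) (w := rep w r) (w' := []) ho
    rw [this]; rfl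
  have hp : ((3 : ℕ) : F) = 0 := by exact_mod_cast three hF
  have hq : ∀ q ∈ w, ckM chevG2 3 q.1 q.2 (TG2 q.1 q.2) = true := by
    intro q hq
    have h := List.all_eq_true.1 hok q hq
    rw [Bool.and_eq_true, Bool.or_eq_true, decide_eq_true_eq, decide_eq_true_eq, decide_eq_true_eq] at h
    obtain ⟨h1, h2 | h2⟩ := h
    · rw [h2]; exact List.all_eq_true.1 tG2_ckP q.1 (List.mem_range.2 h1)
    · rw [h2]; exact List.all_eq_true.1 tG2_ckN q.1 (List.mem_range.2 h1)
  set v0 : chevG2.Idx → F := vec chevG2 F (uv 14 0) with hv0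
  have hv0W : v0 ∈ W F := by
    intro i hi
    have h1 : code chevG2 i ≠ 0 := fun h => hi (by rw [h]; decide)
    have h2 : ∀ a < 14, a ≠ 0 → (uv 14 0).getD a 0 = 0 := by decide
    show (((uv 14 0).getD (code chevG2 i) 0 : ℕ) : F) = 0
    rw [h2 _ (code_lt i) h1, Nat.cast_zero]
  have hcast : ∀ n : ℕ, ((n % 3 : ℕ) : F) = (n : F) := by
    intro n
    conv_rhs => rw [← Nat.mod_add_div n 3]
    push_cast
    rw [three hF, zero_mul, add_zero]
  have hmove : rho F x.1 v0 ≠ v0 := by
    intro h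
    have h1 : rho F x.1 v0 = vec chevG2 F (evalW 3 TG2 w (uv 14 0)) := by
      rw [rho_apply]; exact evalW_eq modelG2 hp hq _
    rw [h1] at h
    have h2 := congrFun h (Sum.inl ⟨0, by decide⟩)
    have h3 : (((evalW 3 TG2 w (uv 14 0)).getD 0 0 : ℕ) : F) = (((uv 14 0).getD 0 0 : ℕ) : F) := h2
    have h4 : (uv 14 0).getD 0 0 = 1 := by decide
    rw [h4, ← hcast] at h3
    have h5 : (evalW 3 TG2 w (uv 14 0)).getD 0 0 % 3 < 3 := Nat.mod_lt _ (by norm_num)
    have h6 : (1 : F) ≠ 0 := one_ne_zero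
    have h7 : (2 : F) ≠ 1 := fun h => h6 (by linear_combination h)
    generalize (evalW 3 TG2 w (uv 14 0)).getD 0 0 % 3 = a at *
    interval_cases a
    · rw [Nat.cast_zero, Nat.cast_one] at h3; exact h6 h3.symm
    · exact hne' rfl
    · rw [Nat.cast_one] at h3; exact h7 (by exact_mod_cast h3)
  have hx1 : x ≠ 1 := by
    intro h
    apply hmove
    rw [h, Subgroup.coe_one, map_one]; rfl
  have hs := (Cfsg.Agent.S1055.result (F := F) ⟨-1, by simp, by
    intro h
    have h6 : (1 : F) ≠ 0 := one_ne_zero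
    have h3 := three hF
    exact h6 (by linear_combination h3 + h)⟩).1
  refine ⟨x, orderOf_eq_prime hxr hx1, fun g hg => ?_⟩
  have h3k : 1 ≤ 3 ^ k := Nat.one_le_pow _ _ (by norm_num)
  have hTk : (rho F x.1) ^ (Fintype.card F ^ k) = rho F x.1 := by
    rw [hF, ← map_pow, ← Subgroup.coe_pow]
    have : x ^ 3 ^ k = x := by
      conv_lhs => rw [← Nat.mod_add_div (3 ^ k) r, pow_add, pow_mul, hxr, one_pow, mul_one, hk, pow_one]
    rw [this]
  have hcomm : Commute (rho F x.1) (rho F g.1) := by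
    rw [Commute, SemiconjBy, ← map_mul, ← map_mul, ← Subgroup.coe_mul, ← Subgroup.coe_mul, hg.eq]
  have hU : rho F g.1 v0 ∈ W F := rho_W hF g.2 v0 hv0W
  have key := comm_pow hcomm v0 (W F) (mem_of_ckc hF hok hc) hU hTk
  refine two_sub hF rfl hs _ ?_ x v0 hv0W hmove
  intro u hu
  have hgu : rho F (g⁻¹ : ↥(chevG2.group F)).1 u ∈ W F := rho_W hF (g⁻¹).2 u hu
  have h8 := key _ hgu
  rw [hF, ← map_pow, ← Subgroup.coe_pow, ← Module.End.mul_apply, ← Module.End.mul_apply, ← map_mul, ← map_mul, ← Subgroup.coe_mul, ← Subgroup.coe_mul,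
    mul_inv_cancel, Subgroup.coe_one, map_one] at h8
  have h9 : g ^ (3 ^ k - 1) = g ^ 3 ^ k * g⁻¹ := by
    rw [eq_mul_inv_iff_mul_eq, ← pow_succ, Nat.sub_add_cancel h3k]
  rw [h9, h8]; rfl

theorem hm7 : (evalW 3 TG2 w7 (uv 14 0)).getD 0 0 % 3 ≠ 1 := by decide +kernel
theorem hm13 : (evalW 3 TG2 w13 (uv 14 0)).getD 0 0 % 3 ≠ 1 := by decide +kernel

theorem ex7 (hF : Fintype.card F = 3) : ∃ x : ↥(chevG2.group F), orderOf x = 7 ∧ ∀ g : ↥(chevG2.group F), Commute x g → g ^ 728 = 1 := by
  obtain ⟨x, h1, h2⟩ := exists_elt hF (by norm_num : Nat.Prime 7) (k := 6) (by norm_num) ok7 ckc7 cko7 hm7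
  exact ⟨x, h1, fun g hg => by simpa using h2 g hg⟩

theorem ex13 (hF : Fintype.card F = 3) : ∃ x : ↥(chevG2.group F), orderOf x = 13 ∧ ∀ g : ↥(chevG2.group F), Commute x g → g ^ 26 = 1 := by
  obtain ⟨x, h1, h2⟩ := exists_elt hF (by norm_num : Nat.Prime 13) (k := 3) (by norm_num) ok13 ckc13 cko13 hm13
  exact ⟨x, h1, fun g hg => by simpa using h2 g hg⟩

end Cfsg.Agent.H15.G3
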