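import Mathlib
import Cfsg.Prelude.Def_LinearParabolics
import Cfsg.Agent.H15_Bruhat

set_option autoImplicit false

namespace Cfsg.Agent.H15.Orb

open Matrix Cfsg.Agent.H15.Bruhat

/-- orbits on a product of coset spaces and double cosets -/
theorem orbits_card {G : Type*} [Group G] (P P' : Subgroup G) {N : Type*} (rep : N → G)
    (h1 : ∀ g : G, ∃ a : N, ∃ p ∈ P, ∃ p' ∈ P', g = p * rep a * p')
    (h2 : ∀ a b : N, ∀ p ∈ P, ∀ p' ∈ P', rep b = p * rep a * p' → a = b) :
    Nat.card (Quotient (MulAction.orbitRel G ((G ⧸ P) × (G ⧸ P')))) = Nat.card N := by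
  symm
  refine Nat.card_congr (Equiv.ofBijective
    (fun a : N => (Quotient.mk (MulAction.orbitRel G ((G ⧸ P) × (G ⧸ P')))
      ((QuotientGroup.mk 1 : G ⧸ P), (QuotientGroup.mk (rep a) : G ⧸ P')))) ⟨?_, ?_⟩)
  · intro a b hab
    have h3 := Quotient.exact hab
    change _ ∈ MulAction.orbit _ _ at h3
    obtain ⟨g, hg⟩ := h3
    have h4 := congrArg Prod.fst hg
    have h5 := congrArg Prod.snd hg
    change (QuotientGroup.mk (g * 1) : G ⧸ P) = QuotientGroup.mk 1 at h4
    change (QuotientGroup.mk (g * rep b) : G ⧸ P') = QuotientGroup.mk (rep a) at h5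
    rw [QuotientGroup.eq] at h4 h5
    have hgP : g ∈ P := by
      have := P.inv_mem h4
      simpa using this
    refine (h2 b a g hgP _ h5 ?_).symm
    group
  · intro x
    obtain ⟨⟨X, Y⟩, rfl⟩ := Quotient.exists_rep x
    obtain ⟨x, rfl⟩ := QuotientGroup.mk_surjective X
    obtain ⟨y, rfl⟩ := QuotientGroup.mk_surjective Y
    obtain ⟨a, p, hp, p', hp', hg⟩ := h1 (x⁻¹ * y)
    refine ⟨a, ?_⟩
    apply Quotient.sound
    change _ ∈ MulAction.orbit _ _
    refine ⟨(x * p)⁻¹, ?_⟩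
    refine Prod.ext ?_ ?_
    · change (QuotientGroup.mk ((x * p)⁻¹ * x) : G ⧸ P) = QuotientGroup.mk 1
      rw [QuotientGroup.eq]
      have : ((x * p)⁻¹ * x)⁻¹ * 1 = p := by group
      rw [this]; exact hp
    · change (QuotientGroup.mk ((x * p)⁻¹ * y) : G ⧸ P') = QuotientGroup.mk (rep a)
      rw [QuotientGroup.eq]
      have : ((x * p)⁻¹ * y)⁻¹ * rep a = p'⁻¹ := by
        have h3 : y = x * (p * rep a * p') := by rw [← hg]; group
        rw [h3]
        group
      rw [this]; exact P'.inv_mem hp'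

/-- maps with equal fibre sizes differ by a permutation -/
theorem exists_perm_of_fiber {X I : Type*} [Finite X] (f g : X → I)
    (h : ∀ i, Nat.card {x // f x = i} = Nat.card {x // g x = i}) : ∃ σ : Equiv.Perm X, ∀ x, g (σ x) = f x := by
  have e : ∀ i, Nonempty ({x // f x = i} ≃ {x // g x = i}) := fun i => Finite.card_eq.mp (h i)
  exact ⟨Equiv.ofFiberEquiv (fun i => Classical.choice (e i)), fun x =>
    Equiv.ofFiberEquiv_map (fun i => Classical.choice (e i)) x⟩

/-- partial sums -/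
def psum {n : ℕ} (μ : Fin n → ℕ) (m : ℕ) : ℕ := ∑ k ∈ Finset.univ.filter (fun k : Fin n => k.val < m), μ k

theorem psum_succ {n : ℕ} (μ : Fin n → ℕ) (l : Fin n) : psum μ (l + 1) = psum μ l + μ l := by
  rw [psum, psum]
  have : (Finset.univ.filter (fun k : Fin n => k.val < l.val + 1)) =
      insert l (Finset.univ.filter (fun k : Fin n => k.val < l.val)) := by
    ext k
    simp only [Finset.mem_filter, Finset.mem_univ, true_and, Finset.mem_insert, Fin.ext_iff]
    omega
  rw [this, Finset.sum_insert (by simp), add_comm]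

theorem psum_mono {n : ℕ} (μ : Fin n → ℕ) : Monotone (psum μ) := by
  intro a b hab
  rw [psum, psum]
  apply Finset.sum_le_sum_of_subset
  intro k hk
  simp only [Finset.mem_filter, Finset.mem_univ, true_and] at hk ⊢
  omega

theorem psum_zero {n : ℕ} (μ : Fin n → ℕ) : psum μ 0 = 0 := by simp [psum]

theorem psum_n {n : ℕ} (μ : Fin n → ℕ) : psum μ n = ∑ i, μ i := by simp [psum]

theorem lt_compLabel {n : ℕ} (μ : Fin n → ℕ) (i : Fin n) (l : Fin n) :
    (l : ℕ) < Cfsg.compLabel μ i ↔ psum μ (l + 1) ≤ i.val := by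
  have key : ∀ j : Fin n, (∑ k ∈ Finset.univ.filter (fun k : Fin n => k ≤ j), μ k) = psum μ (j + 1) := by
    intro j
    rw [psum]
    congr 1
    ext k
    simp only [Finset.mem_filter, Finset.mem_univ, true_and, Fin.le_def]
    omega
  rw [Cfsg.compLabel]
  simp only [key]
  constructor
  · intro h
    by_contra hcon
    push Not at hcon
    have hsub : (Finset.univ.filter fun j : Fin n => psum μ (j + 1) ≤ i.val) ⊆
        Finset.univ.filter (fun j : Fin n => j.val < l.val) := by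
      intro j hj
      simp only [Finset.mem_filter, Finset.mem_univ, true_and] at hj ⊢
      by_contra hjl
      push Not at hjl
      have := psum_mono μ (show l.val + 1 ≤ j.val + 1 by omega)
      omega
    have h1 := Finset.card_le_card hsub
    have h2 : (Finset.univ.filter (fun j : Fin n => j.val < l.val)).card = l.val := by
      have h : (Finset.univ.filter (fun j : Fin n => j.val < l.val)).card = min n l.val :=
        Fin.card_filter_val_lt
      rw [h]
      exact min_eq_right (by omega)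
    omega
  · intro h
    have hsub : Finset.univ.filter (fun j : Fin n => j.val < l.val + 1) ⊆
        (Finset.univ.filter fun j : Fin n => psum μ (j + 1) ≤ i.val) := by
      intro j hj
      simp only [Finset.mem_filter, Finset.mem_univ, true_and] at hj ⊢
      exact (psum_mono μ (show j.val + 1 ≤ l.val + 1 by omega)).trans h
    have h1 := Finset.card_le_card hsub
    have h2 : (Finset.univ.filter (fun j : Fin n => j.val < l.val + 1)).card = l.val + 1 := by
      have h : (Finset.univ.filter (fun j : Fin n => j.val < l.val + 1)).card = min n (l.val + 1) :=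
        Fin.card_filter_val_lt
      rw [h]
      exact min_eq_right (by omega)
    omega

theorem compLabel_lt {n : ℕ} (μ : Fin n → ℕ) (hμ : ∑ i, μ i = n) (i : Fin n) : Cfsg.compLabel μ i < n := by
  have hn : 0 < n := i.pos
  by_contra hcon
  push Not at hcon
  have h1 := (lt_compLabel μ i ⟨n - 1, by omega⟩).mp (by simp; omega)
  simp only at h1
  rw [show n - 1 + 1 = n by omega, psum_n, hμ] at h1
  omega

theorem compLabel_eq {n : ℕ} (μ : Fin n → ℕ) (i : Fin n) (l : Fin n) :
    Cfsg.compLabel μ i = l ↔ psum μ l ≤ i.val ∧ i.val < psum μ (l + 1) := by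
  have h1 := lt_compLabel μ i l
  constructor
  · intro h
    have h2 : ¬ (l : ℕ) < Cfsg.compLabel μ i := by omega
    rw [h1] at h2
    refine ⟨?_, by omega⟩
    rcases Nat.eq_zero_or_pos (l : ℕ) with h0 | h0
    · rw [h0, psum_zero]; omega
    · have h3 := (lt_compLabel μ i ⟨l - 1, by omega⟩).mp (by simp; omega)
      simp only at h3
      rwa [show (l : ℕ) - 1 + 1 = l by omega] at h3
  · rintro ⟨h2, h3⟩
    have h4 : ¬ (l : ℕ) < Cfsg.compLabel μ i := by rw [h1]; omega
    rcases Nat.eq_zero_or_pos (l : ℕ) with h0 | h0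
    · omega
    · have h5 := (lt_compLabel μ i ⟨l - 1, by omega⟩).mpr (by
        simp only
        rwa [show (l : ℕ) - 1 + 1 = l by omega])
      simp only at h5
      omega

theorem compLabel_mono {n : ℕ} (μ : Fin n → ℕ) : Monotone (Cfsg.compLabel μ) := by
  intro a b hab
  rw [Cfsg.compLabel, Cfsg.compLabel]
  apply Finset.card_le_card
  intro j hj
  simp only [Finset.mem_filter, Finset.mem_univ, true_and] at hj ⊢
  exact hj.trans hab

theorem psum_le {n : ℕ} (μ : Fin n → ℕ) (hμ : ∑ i, μ i = n) (m : ℕ) : psum μ m ≤ n := by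
  conv_rhs => rw [← hμ]
  rw [psum]
  exact Finset.sum_le_sum_of_subset (Finset.filter_subset _ _)

theorem card_fiber {n : ℕ} (μ : Fin n → ℕ) (hμ : ∑ i, μ i = n) (l : Fin n) :
    Nat.card {i : Fin n // Cfsg.compLabel μ i = l} = μ l := by
  have h1 : Nat.card {i : Fin n // Cfsg.compLabel μ i = l} = (Finset.Ico (psum μ l) (psum μ (l + 1))).card := by
    rw [← Fintype.card_coe, ← Nat.card_eq_fintype_card]
    refine Nat.card_congr ⟨fun i => ⟨i.1.val, ?_⟩, fun j => ⟨⟨j.1, ?_⟩, ?_⟩, fun i => rfl, fun j => rfl⟩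
    · have := (compLabel_eq μ i.1 l).mp i.2
      simpa using this
    · have := j.2
      rw [Finset.mem_Ico] at this
      exact this.2.trans_le (psum_le μ hμ _)
    · rw [compLabel_eq]
      have := j.2
      rwa [Finset.mem_Ico] at this
  rw [h1, Nat.card_Ico, psum_succ]
  omega


/-- the set of matrices with given margins -/
def Mg {n : ℕ} (μ ν : Fin n → ℕ) : Type :=
  {a : Fin n → Fin n → ℕ // (∀ i, ∑ j, a i j = μ i) ∧ (∀ j, ∑ i, a i j = ν j)}

/-- fibre counts of a permutation with respect to two labels -/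
noncomputable def cnt {n : ℕ} (l l' : Fin n → ℕ) (w : Equiv.Perm (Fin n)) (i j : ℕ) : ℕ :=
  Nat.card {k : Fin n // l (w k) = i ∧ l' k = j}

/-- permutations preserving a label -/
def Yg {n : ℕ} (l : Fin n → ℕ) : Subgroup (Equiv.Perm (Fin n)) where
  carrier := {σ | ∀ i, l (σ i) = l i}
  mul_mem' := fun {a} {b} ha hb i => by
    change l (a (b i)) = l i
    rw [ha, hb]
  one_mem' := fun _ => rfl
  inv_mem' := fun {a} ha i => by
    have h := ha (a⁻¹ i)
    have e : a (a⁻¹ i) = i := by simp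
    rw [e] at h
    exact h.symm

theorem mem_Yg {n : ℕ} {l : Fin n → ℕ} {σ : Equiv.Perm (Fin n)} : σ ∈ Yg l ↔ ∀ i, l (σ i) = l i := Iff.rfl

theorem young_eq {n : ℕ} (μ : Fin n → ℕ) : Cfsg.youngSubgroup μ = Yg (Cfsg.compLabel μ) := rfl

theorem cnt_of_mem {n : ℕ} (l l' : Fin n → ℕ) (w σ τ : Equiv.Perm (Fin n)) (hσ : σ ∈ Yg l) (hτ : τ ∈ Yg l')
    (i j : ℕ) : cnt l l' (σ * w * τ) i j = cnt l l' w i j := by
  refine Nat.card_congr ⟨fun k => ⟨τ k.1, ?_⟩, fun k => ⟨τ⁻¹ k.1, ?_⟩, fun k => ?_, fun k => ?_⟩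
  · have h1 := k.2.1
    have h2 := k.2.2
    exact ⟨(hσ _).symm.trans h1, (hτ _).trans h2⟩
  · have h1 := k.2.1
    have h2 := k.2.2
    refine ⟨?_, ((Yg l').inv_mem hτ _).trans h2⟩
    have h3 : l ((σ * w * τ) (τ⁻¹ k.1)) = l (w k.1) := by
      have h4 : (σ * w * τ) (τ⁻¹ k.1) = σ (w k.1) := by simp
      rw [h4]
      exact hσ _
    exact h3.trans h1
  · ext; simp
  · ext; simp

theorem double_of_cnt {n : ℕ} (l l' : Fin n → ℕ) (w w' : Equiv.Perm (Fin n))
    (h : ∀ i j, cnt l l' w i j = cnt l l' w' i j) : ∃ σ ∈ Yg l, ∃ τ ∈ Yg l', w' = σ * w * τ := by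
  obtain ⟨τ, hτ⟩ := exists_perm_of_fiber (fun k => ((l (w' k), l' k) : ℕ × ℕ)) (fun k => (l (w k), l' k)) (by
    rintro ⟨i, j⟩
    simp only [Prod.mk.injEq]
    exact (h i j).symm)
  simp only [Prod.mk.injEq] at hτ
  refine ⟨w' * τ⁻¹ * w⁻¹, ?_, τ, fun k => (hτ k).2, by group⟩
  intro k
  have h1 := (hτ (τ⁻¹ (w⁻¹ k))).1
  have h2 : w (τ (τ⁻¹ (w⁻¹ k))) = k := by simp
  rw [h2] at h1
  rw [h1]
  rfl

theorem exists_of_margins {n : ℕ} (l l' : Fin n → ℕ) (hl : ∀ i, l i < n) (hl' : ∀ i, l' i < n)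
    (a : Fin n → Fin n → ℕ) (ha : ∀ i : Fin n, ∑ j, a i j = Nat.card {k // l k = i})
    (ha' : ∀ j : Fin n, ∑ i, a i j = Nat.card {k // l' k = j}) :
    ∃ w : Equiv.Perm (Fin n), ∀ i j : Fin n, cnt l l' w i j = a i j := by
  classical
  -- a finite model
  let X := Σ ij : Fin n × Fin n, Fin (a ij.1 ij.2)
  have hX : Fintype.card X = n := by
    have h1 : Fintype.card X = ∑ ij : Fin n × Fin n, a ij.1 ij.2 := by
      simp [X]
    rw [h1, Fintype.sum_prod_type]
    simp only [ha]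
    have h2 : ∑ i : Fin n, Nat.card {k // l k = i} = Fintype.card (Fin n) := by
      rw [← Fintype.card_congr (Equiv.sigmaFiberEquiv (fun k : Fin n => (⟨l k, hl k⟩ : Fin n)))]
      rw [Fintype.card_sigma]
      apply Finset.sum_congr rfl
      intro i _
      rw [Nat.card_eq_fintype_card]
      apply Fintype.card_congr
      exact Equiv.subtypeEquivRight (fun k => by rw [Fin.ext_iff])
    rw [h2, Fintype.card_fin]
  have e : Fin n ≃ X := Fintype.equivOfCardEq (by rw [hX, Fintype.card_fin])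
  have hfib1 : ∀ i : Fin n, Nat.card {x : Fin n // (e x).1.1 = i} = ∑ j, a i j := by
    intro i
    have h1 : Nat.card {x : Fin n // (e x).1.1 = i} = Nat.card {x : X // x.1.1 = i} :=
      Nat.card_congr (e.subtypeEquiv (fun x => Iff.rfl))
    rw [h1]
    have h2 : {x : X // x.1.1 = i} ≃ Σ j : Fin n, Fin (a i j) :=
      { toFun := fun x => ⟨x.1.1.2, ⟨x.1.2.1, x.1.2.2.trans_eq (congrArg (fun t => a t x.1.1.2) x.2)⟩⟩
        invFun := fun y => ⟨⟨(i, y.1), y.2⟩, rfl⟩
        left_inv := by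
          rintro ⟨⟨⟨i', j⟩, t⟩, rfl⟩
          rfl
        right_inv := by
          rintro ⟨j, t⟩
          rfl }
    rw [Nat.card_congr h2, Nat.card_eq_fintype_card]
    simp
  have hfib2 : ∀ j : Fin n, Nat.card {x : Fin n // (e x).1.2 = j} = ∑ i, a i j := by
    intro j
    have h1 : Nat.card {x : Fin n // (e x).1.2 = j} = Nat.card {x : X // x.1.2 = j} :=
      Nat.card_congr (e.subtypeEquiv (fun x => Iff.rfl))
    rw [h1]
    have h2 : {x : X // x.1.2 = j} ≃ Σ i : Fin n, Fin (a i j) :=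
      { toFun := fun x => ⟨x.1.1.1, ⟨x.1.2.1, x.1.2.2.trans_eq (congrArg (fun t => a x.1.1.1 t) x.2)⟩⟩
        invFun := fun y => ⟨⟨(y.1, j), y.2⟩, rfl⟩
        left_inv := by
          rintro ⟨⟨⟨i', j⟩, t⟩, rfl⟩
          rfl
        right_inv := by
          rintro ⟨j, t⟩
          rfl }
    rw [Nat.card_congr h2, Nat.card_eq_fintype_card]
    simp
  have hfib : ∀ i j : Fin n, Nat.card {x : Fin n // (e x).1.1 = i ∧ (e x).1.2 = j} = a i j := by
    intro i j
    have h1 : Nat.card {x : Fin n // (e x).1.1 = i ∧ (e x).1.2 = j} =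
        Nat.card {x : X // x.1.1 = i ∧ x.1.2 = j} :=
      Nat.card_congr (e.subtypeEquiv (fun x => Iff.rfl))
    rw [h1]
    have h2 : {x : X // x.1.1 = i ∧ x.1.2 = j} ≃ Fin (a i j) :=
      { toFun := fun x => ⟨x.1.2.1, x.1.2.2.trans_eq (congrArg₂ a x.2.1 x.2.2)⟩
        invFun := fun y => ⟨⟨(i, j), y⟩, rfl, rfl⟩
        left_inv := by
          rintro ⟨⟨⟨i', j'⟩, t⟩, h3, h4⟩
          subst h3 h4
          rfl
        right_inv := by
          intro t
          rfl }
    rw [Nat.card_congr h2, Nat.card_eq_fintype_card, Fintype.card_fin]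
  -- adjust the second label
  obtain ⟨σ, hσ⟩ := exists_perm_of_fiber l' (fun x => ((e x).1.2 : ℕ)) (by
    intro j
    by_cases hj : j < n
    · have h1 := hfib2 ⟨j, hj⟩
      rw [ha'] at h1
      rw [← h1]
      exact Nat.card_congr (Equiv.subtypeEquivRight (fun k => by rw [Fin.ext_iff]))
    · haveI : IsEmpty {x // l' x = j} := ⟨fun x => hj (by rw [← x.2]; exact hl' _)⟩
      haveI : IsEmpty {x : Fin n // ((e x).1.2 : ℕ) = j} := ⟨fun x => hj (by rw [← x.2]; exact Fin.is_lt _)⟩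
      simp)
  obtain ⟨w, hw⟩ := exists_perm_of_fiber (fun x => ((e (σ x)).1.1 : ℕ)) l (by
    intro i
    by_cases hi : i < n
    · have h1 := hfib1 ⟨i, hi⟩
      rw [ha] at h1
      simp only at h1
      rw [← h1]
      refine Nat.card_congr (σ.subtypeEquiv (fun k => by rw [Fin.ext_iff]))
    · haveI : IsEmpty {x // l x = i} := ⟨fun x => hi (by rw [← x.2]; exact hl _)⟩
      haveI : IsEmpty {x : Fin n // ((e (σ x)).1.1 : ℕ) = i} := ⟨fun x => hi (by rw [← x.2]; exact Fin.is_lt _)⟩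
      simp)
  refine ⟨w, fun i j => ?_⟩
  rw [← hfib i j, cnt]
  refine Nat.card_congr (σ.subtypeEquiv (fun k => ?_))
  rw [hw, ← hσ, Fin.ext_iff, Fin.ext_iff]


theorem cnt_zero_left {n : ℕ} (l l' : Fin n → ℕ) (hl : ∀ i, l i < n) (w : Equiv.Perm (Fin n)) (i j : ℕ)
    (hi : n ≤ i) : cnt l l' w i j = 0 := by
  haveI : IsEmpty {k : Fin n // l (w k) = i ∧ l' k = j} :=
    ⟨fun x => by have := x.2.1; have h2 := hl (w x.1); omega⟩
  simp [cnt]

theorem cnt_zero_right {n : ℕ} (l l' : Fin n → ℕ) (hl' : ∀ i, l' i < n) (w : Equiv.Perm (Fin n)) (i j : ℕ)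
    (hj : n ≤ j) : cnt l l' w i j = 0 := by
  haveI : IsEmpty {k : Fin n // l (w k) = i ∧ l' k = j} :=
    ⟨fun x => by have := x.2.2; have h2 := hl' x.1; omega⟩
  simp [cnt]

theorem cnt_row {n : ℕ} (l l' : Fin n → ℕ) (hl' : ∀ i, l' i < n) (w : Equiv.Perm (Fin n)) (i : ℕ) :
    ∑ j : Fin n, cnt l l' w i j = Nat.card {k : Fin n // l k = i} := by
  classical
  have h1 : Nat.card {k : Fin n // l k = i} = Nat.card {k : Fin n // l (w k) = i} :=
    Nat.card_congr ((w.subtypeEquiv (fun k => Iff.rfl)).symm)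
  rw [h1, Nat.card_eq_fintype_card]
  rw [← Fintype.card_congr (Equiv.sigmaFiberEquiv
    (fun k : {k : Fin n // l (w k) = i} => (⟨l' k.1, hl' k.1⟩ : Fin n))), Fintype.card_sigma]
  apply Finset.sum_congr rfl
  intro j _
  rw [cnt, Nat.card_eq_fintype_card]
  apply Fintype.card_congr
  exact { toFun := fun k => ⟨⟨k.1, k.2.1⟩, Fin.ext k.2.2⟩
          invFun := fun k => ⟨k.1.1, k.1.2, congrArg Fin.val k.2⟩
          left_inv := fun _ => rfl
          right_inv := fun _ => rfl }

theorem cnt_col {n : ℕ} (l l' : Fin n → ℕ) (hl : ∀ i, l i < n) (w : Equiv.Perm (Fin n)) (j : ℕ) :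
    ∑ i : Fin n, cnt l l' w i j = Nat.card {k : Fin n // l' k = j} := by
  classical
  rw [Nat.card_eq_fintype_card]
  rw [← Fintype.card_congr (Equiv.sigmaFiberEquiv
    (fun k : {k : Fin n // l' k = j} => (⟨l (w k.1), hl _⟩ : Fin n))), Fintype.card_sigma]
  apply Finset.sum_congr rfl
  intro i _
  rw [cnt, Nat.card_eq_fintype_card]
  apply Fintype.card_congr
  exact { toFun := fun k => ⟨⟨k.1, k.2.2⟩, Fin.ext k.2.1⟩
          invFun := fun k => ⟨k.1.1, congrArg Fin.val k.2, k.1.2⟩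
          left_inv := fun _ => rfl
          right_inv := fun _ => rfl }

section rep

variable {n : ℕ} (μ ν : Fin n → ℕ) (hμ : ∑ i, μ i = n) (hν : ∑ i, ν i = n)

include hμ hν in
theorem exists_rep (a : Mg μ ν) : ∃ w : Equiv.Perm (Fin n), ∀ i j : Fin n,
    cnt (Cfsg.compLabel μ) (Cfsg.compLabel ν) w i j = a.1 i j := by
  apply exists_of_margins _ _ (compLabel_lt μ hμ) (compLabel_lt ν hν)
  · intro i
    rw [a.2.1 i, card_fiber μ hμ]
  · intro j
    rw [a.2.2 j, card_fiber ν hν]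

include hμ hν in
theorem exists_rep_of (w : Equiv.Perm (Fin n)) : ∃ a : Mg μ ν, ∀ w' : Equiv.Perm (Fin n),
    (∀ i j : Fin n, cnt (Cfsg.compLabel μ) (Cfsg.compLabel ν) w' i j = a.1 i j) →
      ∃ σ ∈ Yg (Cfsg.compLabel μ), ∃ τ ∈ Yg (Cfsg.compLabel ν), w = σ * w' * τ := by
  refine ⟨⟨fun i j => cnt (Cfsg.compLabel μ) (Cfsg.compLabel ν) w i j, fun i => ?_, fun j => ?_⟩, ?_⟩
  · rw [cnt_row _ _ (compLabel_lt ν hν), card_fiber μ hμ]
  · rw [cnt_col _ _ (compLabel_lt μ hμ), card_fiber ν hν]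
  · intro w' hw'
    apply double_of_cnt
    intro i j
    by_cases hi : i < n
    · by_cases hj : j < n
      · exact hw' ⟨i, hi⟩ ⟨j, hj⟩
      · rw [cnt_zero_right _ _ (compLabel_lt ν hν) _ _ _ (by omega),
          cnt_zero_right _ _ (compLabel_lt ν hν) _ _ _ (by omega)]
    · rw [cnt_zero_left _ _ (compLabel_lt μ hμ) _ _ _ (by omega),
        cnt_zero_left _ _ (compLabel_lt μ hμ) _ _ _ (by omega)]

include hμ hν in
theorem sym_orbits : Nat.card (Quotient (MulAction.orbitRel (Equiv.Perm (Fin n))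
    ((Equiv.Perm (Fin n) ⧸ Cfsg.youngSubgroup μ) × (Equiv.Perm (Fin n) ⧸ Cfsg.youngSubgroup ν)))) =
    Nat.card (Mg μ ν) := by
  choose rep hrep using exists_rep μ ν hμ hν
  refine orbits_card _ _ rep ?_ ?_
  · intro w
    obtain ⟨a, ha⟩ := exists_rep_of μ ν hμ hν w
    obtain ⟨σ, hσ, τ, hτ, h⟩ := ha (rep a) (hrep a)
    exact ⟨a, σ, hσ, τ, hτ, h⟩
  · intro a b p hp p' hp' h
    apply Subtype.ext
    funext i j
    rw [← hrep a, ← hrep b, h]
    exact (cnt_of_mem _ _ _ _ _ hp hp' _ _).symm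

end rep

/-! ### the general linear group -/

section gl

open scoped MatrixGroups

variable {F : Type*} [Field F] {n : ℕ}

/-- permutation matrix as an element of GL -/
def pg (F : Type*) [Field F] {n : ℕ} (σ : Equiv.Perm (Fin n)) : GL (Fin n) F :=
  ⟨pm F σ, pm F σ⁻¹, by rw [← pm_mul, mul_inv_cancel, pm_one], by rw [← pm_mul, inv_mul_cancel, pm_one]⟩

theorem pg_coe (σ : Equiv.Perm (Fin n)) : ((pg F σ : GL (Fin n) F) : Matrix (Fin n) (Fin n) F) = pm F σ := rfl

theorem pg_mul (σ τ : Equiv.Perm (Fin n)) : pg F (σ * τ) = pg F σ * pg F τ :=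
  Units.ext (pm_mul σ τ)

theorem pg_inv (σ : Equiv.Perm (Fin n)) : (pg F σ)⁻¹ = pg F σ⁻¹ := rfl

theorem mem_par {μ : Fin n → ℕ} {g : GL (Fin n) F} : g ∈ Cfsg.parabolicGL n F μ ↔
    (g : Matrix (Fin n) (Fin n) F).BlockTriangular (Cfsg.compLabel μ) := Iff.rfl

theorem pg_mem {μ : Fin n → ℕ} {σ : Equiv.Perm (Fin n)} (h : σ ∈ Yg (Cfsg.compLabel μ)) :
    pg F σ ∈ Cfsg.parabolicGL n F μ := by
  rw [mem_par, pg_coe]
  intro i j hij
  rw [pm_apply, if_neg]
  rintro rfl
  rw [h j] at hij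
  exact lt_irrefl _ hij

theorem tri_mem {μ : Fin n → ℕ} {g : GL (Fin n) F} (h : (g : Matrix (Fin n) (Fin n) F).BlockTriangular id) :
    g ∈ Cfsg.parabolicGL n F μ := by
  rw [mem_par]
  intro i j hij
  apply h
  by_contra hcon
  exact absurd hij (not_lt.mpr (compLabel_mono μ (not_lt.mp hcon)))

theorem bruhat (g : GL (Fin n) F) : ∃ (b b' : GL (Fin n) F) (w : Equiv.Perm (Fin n)),
    (b : Matrix (Fin n) (Fin n) F).BlockTriangular id ∧ (b' : Matrix (Fin n) (Fin n) F).BlockTriangular id ∧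
      g = b * pg F w * b' := by
  obtain ⟨b, b', w, hb, hb', ht, ht', h⟩ := bruhat_mat n (g : Matrix (Fin n) (Fin n) F) g.isUnit
  obtain ⟨b, rfl⟩ := hb
  obtain ⟨b', rfl⟩ := hb'
  exact ⟨b, b', w, ht, ht', Units.ext h⟩

/-- the invariant separating double cosets -/
noncomputable def inv {n : ℕ} (l l' : Fin n → ℕ) (g : GL (Fin n) F) (i j : ℕ) : ℕ :=
  Nat.card {v : Fin n → F // (∀ a, i ≤ l a → v a = 0) ∧
    (∀ b, j ≤ l' b → (((g⁻¹ : GL (Fin n) F) : Matrix (Fin n) (Fin n) F).mulVec v) b = 0)}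

theorem par_vanish {μ : Fin n → ℕ} {p : GL (Fin n) F} (hp : p ∈ Cfsg.parabolicGL n F μ) (i : ℕ)
    (v : Fin n → F) (hv : ∀ a, i ≤ Cfsg.compLabel μ a → v a = 0) (a : Fin n) (ha : i ≤ Cfsg.compLabel μ a) :
    ((p : Matrix (Fin n) (Fin n) F).mulVec v) a = 0 := by
  rw [Matrix.mulVec, dotProduct]
  apply Finset.sum_eq_zero
  intro b _
  by_cases hb : Cfsg.compLabel μ b < Cfsg.compLabel μ a
  · rw [hp hb, zero_mul]
  · rw [hv b (by omega), mul_zero]

theorem inv_of_mem {μ ν : Fin n → ℕ} (g p p' : GL (Fin n) F) (hp : p ∈ Cfsg.parabolicGL n F μ)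
    (hp' : p' ∈ Cfsg.parabolicGL n F ν) (i j : ℕ) :
    inv (Cfsg.compLabel μ) (Cfsg.compLabel ν) (p * g * p') i j = inv (Cfsg.compLabel μ) (Cfsg.compLabel ν) g i j := by
  have e1 : ∀ v : Fin n → F, ((p⁻¹ : GL (Fin n) F) : Matrix (Fin n) (Fin n) F).mulVec
      ((p : Matrix (Fin n) (Fin n) F).mulVec v) = v := by
    intro v
    rw [Matrix.mulVec_mulVec, ← Units.val_mul, inv_mul_cancel, Units.val_one, Matrix.one_mulVec]
  have e2 : ∀ v : Fin n → F, (p : Matrix (Fin n) (Fin n) F).mulVec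
      (((p⁻¹ : GL (Fin n) F) : Matrix (Fin n) (Fin n) F).mulVec v) = v := by
    intro v
    rw [Matrix.mulVec_mulVec, ← Units.val_mul, mul_inv_cancel, Units.val_one, Matrix.one_mulVec]
  have e3 : ∀ v : Fin n → F, (((p * g * p')⁻¹ : GL (Fin n) F) : Matrix (Fin n) (Fin n) F).mulVec v =
      ((p'⁻¹ : GL (Fin n) F) : Matrix (Fin n) (Fin n) F).mulVec
        (((g⁻¹ : GL (Fin n) F) : Matrix (Fin n) (Fin n) F).mulVec
          (((p⁻¹ : GL (Fin n) F) : Matrix (Fin n) (Fin n) F).mulVec v)) := by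
    intro v
    rw [Matrix.mulVec_mulVec, Matrix.mulVec_mulVec, ← Units.val_mul, ← Units.val_mul]
    congr 3
    group
  have e4 : ∀ v : Fin n → F, (p' : Matrix (Fin n) (Fin n) F).mulVec
      (((p'⁻¹ : GL (Fin n) F) : Matrix (Fin n) (Fin n) F).mulVec v) = v := by
    intro v
    rw [Matrix.mulVec_mulVec, ← Units.val_mul, mul_inv_cancel, Units.val_one, Matrix.one_mulVec]
  refine Nat.card_congr ⟨fun v => ⟨((p⁻¹ : GL (Fin n) F) : Matrix (Fin n) (Fin n) F).mulVec v.1, ?_, ?_⟩,
    fun v => ⟨(p : Matrix (Fin n) (Fin n) F).mulVec v.1, ?_, ?_⟩, fun v => ?_, fun v => ?_⟩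
  · exact par_vanish ((Cfsg.parabolicGL n F μ).inv_mem hp) i v.1 v.2.1
  · have h1 := v.2.2
    simp only [e3] at h1
    have h2 := par_vanish hp' j _ h1
    simp only [e4] at h2
    exact h2
  · exact par_vanish hp i v.1 v.2.1
  · have h1 := par_vanish ((Cfsg.parabolicGL n F ν).inv_mem hp') j _ v.2.2
    simp only [e3, e1]
    exact h1
  · exact Subtype.ext (e2 _)
  · exact Subtype.ext (e1 _)

theorem pg_inv_mulVec (w : Equiv.Perm (Fin n)) (v : Fin n → F) (b : Fin n) :
    (((pg F w)⁻¹ : GL (Fin n) F) : Matrix (Fin n) (Fin n) F).mulVec v b = v (w b) := by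
  rw [pg_inv, pg_coe, Matrix.mulVec, dotProduct, Finset.sum_eq_single (w b)]
  · simp [pm_apply]
  · intro x _ hx
    rw [pm_apply, if_neg, zero_mul]
    rintro rfl
    apply hx
    simp
  · simp

theorem inv_pg [Fintype F] (l l' : Fin n → ℕ) (w : Equiv.Perm (Fin n)) (i j : ℕ) :
    inv l l' (pg F w) i j = Fintype.card F ^
      ((Finset.univ.filter (fun k : Fin n => l (w k) < i ∧ l' k < j)).card) := by
  classical
  have h1 : inv l l' (pg F w) i j =
      Nat.card ((Finset.univ.filter (fun k : Fin n => l (w k) < i ∧ l' k < j)) → F) := by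
    refine Nat.card_congr ⟨fun v k => v.1 (w k.1), fun f => ⟨fun a =>
      if h : w⁻¹ a ∈ (Finset.univ.filter (fun k : Fin n => l (w k) < i ∧ l' k < j)) then f ⟨w⁻¹ a, h⟩ else 0,
        ?_, ?_⟩, ?_, ?_⟩
    · intro a ha
      beta_reduce
      rw [dif_neg]
      simp only [Finset.mem_filter, Finset.mem_univ, true_and, not_and]
      intro h2
      have h3 : w (w⁻¹ a) = a := by simp
      rw [h3] at h2
      omega
    · intro b hb
      rw [pg_inv_mulVec, dif_neg]
      simp only [Finset.mem_filter, Finset.mem_univ, true_and, not_and]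
      intro _
      have h3 : w⁻¹ (w b) = b := by simp
      rw [h3]
      omega
    · intro v
      apply Subtype.ext
      funext a
      simp only
      split_ifs with h
      · simp
      · simp only [Finset.mem_filter, Finset.mem_univ, true_and, not_and_or, not_lt] at h
        rcases h with h | h
        · have h3 : w (w⁻¹ a) = a := by simp
          rw [h3] at h
          exact (v.2.1 a h).symm
        · have h4 := v.2.2 (w⁻¹ a) h
          rw [pg_inv_mulVec] at h4
          have h3 : w (w⁻¹ a) = a := by simp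
          rw [h3] at h4
          exact h4.symm
    · intro f
      funext k
      have h3 : w⁻¹ (w k.1) = k.1 := by simp
      simp only [h3]
      rw [dif_pos k.2]
  rw [h1, Nat.card_eq_fintype_card, Fintype.card_fun, Fintype.card_coe]

theorem cnt_of_filter (l l' : Fin n → ℕ) (w w' : Equiv.Perm (Fin n))
    (h : ∀ i j : ℕ, (Finset.univ.filter (fun k : Fin n => l (w k) < i ∧ l' k < j)).card =
      (Finset.univ.filter (fun k : Fin n => l (w' k) < i ∧ l' k < j)).card) (i j : ℕ) :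
    cnt l l' w i j = cnt l l' w' i j := by
  classical
  have s1 : ∀ (w : Equiv.Perm (Fin n)) (i j : ℕ),
      (Finset.univ.filter (fun k : Fin n => l (w k) < i + 1 ∧ l' k < j)).card =
      (Finset.univ.filter (fun k : Fin n => l (w k) < i ∧ l' k < j)).card +
      (Finset.univ.filter (fun k : Fin n => l (w k) = i ∧ l' k < j)).card := by
    intro w i j
    rw [← Finset.card_union_of_disjoint]
    · congr 1
      ext k
      simp only [Finset.mem_filter, Finset.mem_univ, true_and, Finset.mem_union]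
      omega
    · rw [Finset.disjoint_left]
      intro k hk
      simp only [Finset.mem_filter, Finset.mem_univ, true_and] at hk ⊢
      omega
  have s2 : ∀ (w : Equiv.Perm (Fin n)) (i j : ℕ),
      (Finset.univ.filter (fun k : Fin n => l (w k) = i ∧ l' k < j + 1)).card =
      (Finset.univ.filter (fun k : Fin n => l (w k) = i ∧ l' k < j)).card +
      (Finset.univ.filter (fun k : Fin n => l (w k) = i ∧ l' k = j)).card := by
    intro w i j
    rw [← Finset.card_union_of_disjoint]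
    · congr 1
      ext k
      simp only [Finset.mem_filter, Finset.mem_univ, true_and, Finset.mem_union]
      omega
    · rw [Finset.disjoint_left]
      intro k hk
      simp only [Finset.mem_filter, Finset.mem_univ, true_and] at hk ⊢
      omega
  have s3 : ∀ w : Equiv.Perm (Fin n), cnt l l' w i j =
      (Finset.univ.filter (fun k : Fin n => l (w k) = i ∧ l' k = j)).card := by
    intro w
    rw [cnt, Nat.card_eq_fintype_card, Fintype.card_subtype]
  have t1 : ∀ j, (Finset.univ.filter (fun k : Fin n => l (w k) = i ∧ l' k < j)).card =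
      (Finset.univ.filter (fun k : Fin n => l (w' k) = i ∧ l' k < j)).card := by
    intro j
    have a1 := s1 w i j
    have a2 := s1 w' i j
    have a3 := h i j
    have a4 := h (i + 1) j
    omega
  rw [s3, s3]
  have a1 := s2 w i j
  have a2 := s2 w' i j
  have a3 := t1 j
  have a4 := t1 (j + 1)
  omega

theorem gl_orbits [Fintype F] (μ ν : Fin n → ℕ) (hμ : ∑ i, μ i = n) (hν : ∑ i, ν i = n) :
    Nat.card (Quotient (MulAction.orbitRel (GL (Fin n) F)
      ((GL (Fin n) F ⧸ Cfsg.parabolicGL n F μ) × (GL (Fin n) F ⧸ Cfsg.parabolicGL n F ν)))) =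
    Nat.card (Mg μ ν) := by
  choose rep hrep using exists_rep μ ν hμ hν
  refine orbits_card _ _ (fun a => pg F (rep a)) ?_ ?_
  · intro g
    obtain ⟨b, b', w, hb, hb', rfl⟩ := bruhat g
    obtain ⟨a, ha⟩ := exists_rep_of μ ν hμ hν w
    obtain ⟨σ, hσ, τ, hτ, h⟩ := ha (rep a) (hrep a)
    refine ⟨a, b * pg F σ, mul_mem (tri_mem hb) (pg_mem hσ), pg F τ * b', mul_mem (pg_mem hτ) (tri_mem hb'), ?_⟩
    rw [h, pg_mul, pg_mul]
    group
  · intro a b p hp p' hp' h
    apply Subtype.ext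
    funext i j
    rw [← hrep a, ← hrep b]
    apply cnt_of_filter
    intro i j
    have h1 := inv_of_mem (pg F (rep a)) p p' hp hp' i j
    rw [← h, inv_pg, inv_pg] at h1
    exact (Nat.pow_right_injective Fintype.one_lt_card h1).symm

end gl

end Cfsg.Agent.H15.Orb
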