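import Mathlib
import Cfsg.Prelude.Def_LinearParabolics
import Cfsg.Agent.H15_Orb

set_option autoImplicit false

namespace Cfsg.Agent.H15.GLCard

open Matrix Cfsg.Agent.H15.Bruhat Cfsg.Agent.H15.Orb
open scoped MatrixGroups

theorem card_li_flag {K V : Type*} [Field K] [Fintype K] [AddCommGroup V] [Module K V] [Finite V]
    (W : ℕ → Submodule K V) (hW : Monotone W) (k : ℕ) :
    Nat.card {s : Fin k → V // LinearIndependent K s ∧ ∀ j : Fin k, s j ∈ W j} =
      ∏ j ∈ Finset.range k, (Nat.card (W j) - Fintype.card K ^ j) := by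
  classical
  induction k with
  | zero =>
    simp only [Finset.range_zero, Finset.prod_empty]
    rw [Nat.card_eq_one_iff_unique]
    refine ⟨⟨fun a b => Subtype.ext (Subsingleton.elim _ _)⟩, ⟨⟨Fin.elim0, linearIndependent_empty_type, fun j => j.elim0⟩⟩⟩
  | succ k ih =>
    have e : {s : Fin (k + 1) → V // LinearIndependent K s ∧ ∀ j : Fin (k + 1), s j ∈ W j} ≃
        Σ s : {s : Fin k → V // LinearIndependent K s ∧ ∀ j : Fin k, s j ∈ W j},
          {v : V // v ∈ W k ∧ v ∉ Submodule.span K (Set.range s.1)} :=
      { toFun := fun s => ⟨⟨Fin.init s.1, by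
            have h1 := s.2.1
            rw [← Fin.snoc_init_self s.1, linearIndependent_finSnoc] at h1
            exact h1.1, fun j => s.2.2 j.castSucc⟩, ⟨s.1 (Fin.last k), by
            refine ⟨s.2.2 (Fin.last k), ?_⟩
            have h1 := s.2.1
            rw [← Fin.snoc_init_self s.1, linearIndependent_finSnoc] at h1
            exact h1.2⟩⟩
        invFun := fun p => ⟨Fin.snoc p.1.1 p.2.1, by
            rw [linearIndependent_finSnoc]
            exact ⟨p.1.2.1, p.2.2.2⟩, fun j => by
            refine Fin.lastCases ?_ (fun i => ?_) j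
            · simp only [Fin.snoc_last, Fin.val_last]
              exact p.2.2.1
            · simp only [Fin.snoc_castSucc, Fin.val_castSucc]
              exact p.1.2.2 i⟩
        left_inv := fun s => Subtype.ext (Fin.snoc_init_self s.1)
        right_inv := by
          intro p
          apply Sigma.subtype_ext
          · apply Subtype.ext
            simp only [Fin.init_snoc]
          · simp only [Fin.snoc_last] }
    haveI : Fintype {s : Fin k → V // LinearIndependent K s ∧ ∀ j : Fin k, s j ∈ W j} := Fintype.ofFinite _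
    rw [Nat.card_congr e, Nat.card_sigma, Finset.prod_range_succ, ← ih]
    have hc : ∀ s : {s : Fin k → V // LinearIndependent K s ∧ ∀ j : Fin k, s j ∈ W j},
        Nat.card {v : V // v ∈ W k ∧ v ∉ Submodule.span K (Set.range s.1)} =
          Nat.card (W k) - Fintype.card K ^ k := by
      intro s
      have hle : Submodule.span K (Set.range s.1) ≤ W k := by
        rw [Submodule.span_le]
        rintro _ ⟨j, rfl⟩
        exact hW (Nat.le_of_lt j.2) (s.2.2 j)
      have h1 : Nat.card (Submodule.span K (Set.range s.1)) = Fintype.card K ^ k := by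
        haveI : Fintype (Submodule.span K (Set.range s.1)) := Fintype.ofFinite _
        rw [Nat.card_eq_fintype_card, Module.card_eq_pow_finrank (K := K), finrank_span_eq_card s.2.1,
          Fintype.card_fin]
      have h2 : Nat.card (W k) = Nat.card (Submodule.span K (Set.range s.1)) +
          Nat.card {v : V // v ∈ W k ∧ v ∉ Submodule.span K (Set.range s.1)} := by
        rw [← Nat.card_sum]
        refine Nat.card_congr
          { toFun := fun v => if h : v.1 ∈ Submodule.span K (Set.range s.1) then Sum.inl ⟨v.1, h⟩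
              else Sum.inr ⟨v.1, v.2, h⟩
            invFun := fun v => Sum.elim (fun a => ⟨a.1, hle a.2⟩) (fun a => ⟨a.1, a.2.1⟩) v
            left_inv := ?_
            right_inv := ?_ }
        · intro v
          by_cases h : v.1 ∈ Submodule.span K (Set.range s.1)
          · simp [h]
          · simp [h]
        · rintro (a | a)
          · simp
          · simp [a.2.2]
      omega
    rw [Finset.sum_congr rfl (fun s _ => hc s), Finset.sum_const, Finset.card_univ,
      ← Nat.card_eq_fintype_card (α := {s : Fin k → V // LinearIndependent K s ∧ ∀ j : Fin k, s j ∈ W j}),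
      smul_eq_mul]

/-- `q`-integers -/
def Q1 (q m : ℕ) : ℕ := ∑ l ∈ Finset.range m, q ^ l

/-- `q`-factorials -/
def Qf (q m : ℕ) : ℕ := ∏ j ∈ Finset.range m, ∑ l ∈ Finset.range (j + 1), q ^ l

theorem Qf_eq (q m : ℕ) : Qf q m = ∏ j ∈ Finset.range m, Q1 q (m - j) := by
  rw [Qf, ← Finset.prod_range_reflect]
  apply Finset.prod_congr rfl
  intro j hj
  rw [Finset.mem_range] at hj
  rw [Q1]
  congr 2
  omega

theorem pow_eq (q m : ℕ) (hq : 1 ≤ q) : q ^ m = (q - 1) * Q1 q m + 1 := by
  induction m with
  | zero => simp [Q1]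
  | succ m ih =>
    obtain ⟨r, rfl⟩ : ∃ r, q = r + 1 := ⟨q - 1, by omega⟩
    simp only [Q1, Nat.add_sub_cancel] at ih ⊢
    rw [Finset.sum_range_succ, pow_succ, ih]
    rw [mul_add, ← ih]
    have : (r + 1) ^ m = r * ∑ l ∈ Finset.range m, (r + 1) ^ l + 1 := ih
    nlinarith

theorem pow_sub_pow (q s j : ℕ) (hq : 1 ≤ q) (hs : j ≤ s) :
    q ^ s - q ^ j = q ^ j * (q - 1) * Q1 q (s - j) := by
  have h1 : q ^ s = q ^ j * q ^ (s - j) := by rw [← pow_add]; congr 1; omega
  rw [h1, pow_eq q (s - j) hq]
  rw [mul_add, mul_one, Nat.add_sub_cancel, mul_assoc]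

variable {F : Type*} [Field F] [Fintype F] {n : ℕ}

/-- the subspaces attached to a composition -/
def Wf (F : Type*) [Field F] {n : ℕ} (μ : Fin n → ℕ) (m : ℕ) : Submodule F (Fin n → F) where
  carrier := {v | ∀ a, m ≤ a.val → v a = 0}
  add_mem' := by
    intro u v hu hv a ha
    rw [Pi.add_apply, hu a ha, hv a ha, add_zero]
  zero_mem' := by intro a _; rfl
  smul_mem' := by
    intro c v hv a ha
    rw [Pi.smul_apply, hv a ha, smul_zero]

theorem card_Wf (μ : Fin n → ℕ) (m : ℕ) (hm : m ≤ n) : Nat.card (Wf F μ m) = Fintype.card F ^ m := by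
  classical
  have e : Wf F μ m ≃ (Fin m → F) :=
    { toFun := fun v i => v.1 (Fin.castLE hm i)
      invFun := fun f => ⟨fun a => if h : a.val < m then f ⟨a.val, h⟩ else 0, by
        intro a ha
        simp only
        rw [dif_neg (by omega)]⟩
      left_inv := by
        intro v
        apply Subtype.ext
        funext a
        simp only
        split_ifs with h
        · rfl
        · exact (v.2 a (by omega)).symm
      right_inv := by
        intro f
        funext i
        simp }
  rw [Nat.card_congr e, Nat.card_eq_fintype_card, Fintype.card_fun, Fintype.card_fin]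

/-- end of the block containing position `j` -/
def sf {n : ℕ} (μ : Fin n → ℕ) (j : ℕ) : ℕ := if h : j < n then psum μ (Cfsg.compLabel μ ⟨j, h⟩ + 1) else n

theorem label_le_iff (μ : Fin n → ℕ) (hμ : ∑ i, μ i = n) (a j : Fin n) :
    Cfsg.compLabel μ a ≤ Cfsg.compLabel μ j ↔ a.val < sf μ j := by
  rw [sf, dif_pos j.2]
  have h1 := lt_compLabel μ a ⟨Cfsg.compLabel μ j, compLabel_lt μ hμ j⟩
  simp only at h1
  constructor
  · intro h
    by_contra hcon
    have := h1.mpr (not_lt.mp hcon)
    omega
  · intro h
    by_contra hcon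
    have := h1.mp (not_le.mp hcon)
    simp only [Fin.eta] at h
    omega

theorem sf_le (μ : Fin n → ℕ) (hμ : ∑ i, μ i = n) (j : ℕ) : sf μ j ≤ n := by
  rw [sf]
  split_ifs
  · exact psum_le μ hμ _
  · exact le_rfl

theorem lt_sf (μ : Fin n → ℕ) (hμ : ∑ i, μ i = n) (j : ℕ) (hj : j < n) : j < sf μ j :=
  (label_le_iff μ hμ ⟨j, hj⟩ ⟨j, hj⟩).mp le_rfl

theorem sf_mono (μ : Fin n → ℕ) (hμ : ∑ i, μ i = n) : Monotone (sf μ) := by
  intro a b hab
  by_cases hb : b < n
  · rw [sf, sf, dif_pos (show a < n by omega), dif_pos hb]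
    apply psum_mono
    have := compLabel_mono μ (show (⟨a, by omega⟩ : Fin n) ≤ ⟨b, hb⟩ from hab)
    omega
  · have : sf μ b = n := by rw [sf, dif_neg hb]
    rw [this]
    exact sf_le μ hμ a

theorem card_par (μ : Fin n → ℕ) (hμ : ∑ i, μ i = n) :
    Nat.card (Cfsg.parabolicGL n F μ) =
      ∏ j ∈ Finset.range n, (Fintype.card F ^ (sf μ j) - Fintype.card F ^ j) := by
  have h1 := card_li_flag (K := F) (V := Fin n → F) (fun j => Wf F μ (sf μ j)) (by
    intro a b hab v hv x hx
    exact hv x ((sf_mono μ hμ hab).trans hx)) n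
  simp only [card_Wf μ _ (sf_le μ hμ _)] at h1
  rw [← h1]
  have key : ∀ g : GL (Fin n) F, g ∈ Cfsg.parabolicGL n F μ ↔
      ∀ j : Fin n, (Matrix.equiv_GL_linearindependent (𝔽 := F) n g).1 j ∈ Wf F μ (sf μ j) := by
    intro g
    rw [mem_par]
    constructor
    · intro h j a ha
      apply h
      rw [← not_le, label_le_iff μ hμ]
      omega
    · intro h a j haj
      apply h j a
      rw [← not_le, label_le_iff μ hμ] at haj
      omega
  refine Nat.card_congr
    { toFun := fun g => ⟨(Matrix.equiv_GL_linearindependent n g.1).1,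
        (Matrix.equiv_GL_linearindependent n g.1).2, (key g.1).mp g.2⟩
      invFun := fun s => ⟨(Matrix.equiv_GL_linearindependent n).symm ⟨s.1, s.2.1⟩, by
        rw [key, Equiv.apply_symm_apply]
        exact s.2.2⟩
      left_inv := fun g => Subtype.ext (by simp)
      right_inv := fun s => Subtype.ext (by simp) }

theorem prod_sf (μ : Fin n → ℕ) (hμ : ∑ i, μ i = n) (f : ℕ → ℕ) :
    ∏ j ∈ Finset.range n, f (sf μ j - j) = ∏ i : Fin n, ∏ j ∈ Finset.range (μ i), f (μ i - j) := by
  have key : ∀ m, m ≤ n → ∏ j ∈ Finset.range (psum μ m), f (sf μ j - j) =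
      ∏ i : Fin n, if i.val < m then ∏ j ∈ Finset.range (μ i), f (μ i - j) else 1 := by
    intro m
    induction m with
    | zero => intro _; simp [psum_zero]
    | succ m ih =>
      intro hm
      have h1 := psum_succ μ ⟨m, by omega⟩
      simp only at h1
      rw [h1, Finset.prod_range_add, ih (by omega)]
      have h2 : ∀ x ∈ Finset.range (μ ⟨m, by omega⟩), f (sf μ (psum μ m + x) - (psum μ m + x)) =
          f (μ ⟨m, by omega⟩ - x) := by
        intro x hx
        rw [Finset.mem_range] at hx
        have hlt : psum μ m + x < n := by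
          have := psum_le μ hμ (m + 1)
          omega
        have h3 : Cfsg.compLabel μ ⟨psum μ m + x, hlt⟩ = m := by
          have := (compLabel_eq μ ⟨psum μ m + x, hlt⟩ ⟨m, by omega⟩).mpr (by
            simp only; omega)
          exact this
        rw [sf, dif_pos hlt, h3, h1]
        congr 1
        omega
      rw [Finset.prod_congr rfl h2]
      have h4 : (∏ i : Fin n, if i.val < m + 1 then ∏ j ∈ Finset.range (μ i), f (μ i - j) else 1) =
          (∏ i : Fin n, if i.val < m then ∏ j ∈ Finset.range (μ i), f (μ i - j) else 1) *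
            ∏ i : Fin n, if i = ⟨m, by omega⟩ then ∏ j ∈ Finset.range (μ i), f (μ i - j) else 1 := by
        rw [← Finset.prod_mul_distrib]
        apply Finset.prod_congr rfl
        intro i _
        by_cases h5 : i.val < m
        · have : i ≠ ⟨m, by omega⟩ := by
            intro h8
            rw [h8] at h5
            simp at h5
          rw [if_pos (by omega), if_pos h5, if_neg this, mul_one]
        · by_cases h6 : i = ⟨m, by omega⟩
          · have h7 : i.val = m := by rw [h6]
            rw [if_pos (by omega), if_neg h5, if_pos h6, one_mul]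
          · have : ¬ i.val < m + 1 := by
              intro h7
              apply h6
              ext
              simp only
              omega
            rw [if_neg this, if_neg h5, if_neg h6, mul_one]
      rw [h4]
      congr 1
      rw [Finset.prod_ite_eq' Finset.univ]
      simp
  have h := key n le_rfl
  rw [psum_n, hμ] at h
  rw [h]
  apply Finset.prod_congr rfl
  intro i _
  rw [if_pos i.2]

theorem index_formula (μ : Fin n → ℕ) (hμ : ∑ i, μ i = n) :
    Nat.card (GL (Fin n) F ⧸ Cfsg.parabolicGL n F μ) * ∏ i : Fin n, Qf (Fintype.card F) (μ i) =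
      Qf (Fintype.card F) n := by
  set q := Fintype.card F with hq
  have hq2 : 2 ≤ q := Fintype.one_lt_card
  have h1 : Nat.card (GL (Fin n) F) = Nat.card (GL (Fin n) F ⧸ Cfsg.parabolicGL n F μ) *
      Nat.card (Cfsg.parabolicGL n F μ) := Subgroup.card_eq_card_quotient_mul_card_subgroup _
  rw [card_par μ hμ, Matrix.card_GL_field] at h1
  have h2 : ∏ i : Fin n, (Fintype.card F ^ n - Fintype.card F ^ (i : ℕ)) =
      (∏ j ∈ Finset.range n, q ^ j * (q - 1)) * Qf q n := by
    rw [Finset.prod_range (fun j => q ^ j * (q - 1)), Qf_eq, Finset.prod_range (fun j => Q1 q (n - j)),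
      ← Finset.prod_mul_distrib]
    apply Finset.prod_congr rfl
    intro j _
    exact pow_sub_pow q n j (by omega) j.2.le
  have h3 : ∏ j ∈ Finset.range n, (Fintype.card F ^ (sf μ j) - Fintype.card F ^ j) =
      (∏ j ∈ Finset.range n, q ^ j * (q - 1)) * ∏ i : Fin n, Qf q (μ i) := by
    have h4 : ∏ i : Fin n, Qf q (μ i) = ∏ j ∈ Finset.range n, Q1 q (sf μ j - j) := by
      rw [prod_sf μ hμ (Q1 q)]
      apply Finset.prod_congr rfl
      intro i _
      exact Qf_eq q (μ i)
    rw [h4, ← Finset.prod_mul_distrib]
    apply Finset.prod_congr rfl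
    intro j hj
    rw [Finset.mem_range] at hj
    exact pow_sub_pow q (sf μ j) j (by omega) (lt_sf μ hμ j hj).le
  rw [h2, h3] at h1
  have hpos : 0 < ∏ j ∈ Finset.range n, q ^ j * (q - 1) := by
    apply Finset.prod_pos
    intro j _
    exact Nat.mul_pos (pow_pos (by omega) _) (by omega)
  apply Nat.eq_of_mul_eq_mul_left hpos
  rw [h1]
  ring

end Cfsg.Agent.H15.GLCard
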