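import Mathlib
import Cfsg.Prelude.Def_LinearParabolics
import Cfsg.Agent.H15_GLCard

set_option autoImplicit false

namespace Cfsg.Agent.H15.GLDeg

open Matrix Cfsg.Agent.H15.Bruhat Cfsg.Agent.H15.Orb Cfsg.Agent.H15.GLCard
open scoped MatrixGroups

theorem choose3 (n : ℕ) : n * (n - 1) * (n - 2) / 6 = n.choose 3 := by
  rw [Nat.choose_eq_descFactorial_div_factorial]
  congr 1
  rw [show (3 : ℕ) = 2 + 1 from rfl, Nat.descFactorial_succ, show (2 : ℕ) = 1 + 1 from rfl,
    Nat.descFactorial_succ, Nat.descFactorial_one]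
  ring

theorem sum_choose2 (n : ℕ) : ∑ j ∈ Finset.range n, j * (j - 1) / 2 = n * (n - 1) * (n - 2) / 6 := by
  rw [choose3]
  induction n with
  | zero => simp
  | succ n ih =>
    rw [Finset.sum_range_succ, ih, ← Nat.choose_two_right, Nat.choose_succ_succ' n 2]
    ring

theorem E_succ (q k : ℕ) : (q : ℂ) ^ ((k + 1) * (k + 1 - 1) / 2) = (q : ℂ) ^ (k * (k - 1) / 2) * (q : ℂ) ^ k := by
  rw [← pow_add]
  congr 1
  rw [← Nat.choose_two_right, ← Nat.choose_two_right, Nat.choose_succ_succ' k 1, Nat.choose_one_right]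
  ring

theorem Q1_add (q a b : ℕ) : Q1 q (a + b) = Q1 q a + q ^ a * Q1 q b := by
  rw [Q1, Q1, Q1, Finset.sum_range_add, Finset.mul_sum]
  congr 1
  apply Finset.sum_congr rfl
  intro x _
  rw [pow_add]

theorem Qf_succ (q m : ℕ) : Qf q (m + 1) = Qf q m * Q1 q (m + 1) := by
  rw [Qf, Qf, Finset.prod_range_succ]
  rfl

/-- the shifted factorial polynomials -/
noncomputable def pk (q k : ℕ) : Polynomial ℂ := ∏ m ∈ Finset.range k, (Polynomial.X - Polynomial.C (Q1 q m : ℂ))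

theorem pk_natDegree (q k : ℕ) : (pk q k).natDegree = k := by
  rw [pk, Polynomial.natDegree_prod_of_monic _ _ (fun i _ => Polynomial.monic_X_sub_C _)]
  simp only [Polynomial.natDegree_X_sub_C]
  simp

theorem pk_monic (q k : ℕ) : (pk q k).Monic := Polynomial.monic_prod_of_monic _ _
  (fun i _ => Polynomial.monic_X_sub_C _)

theorem pk_eval (q k : ℕ) (x : ℂ) : (pk q k).eval x = ∏ m ∈ Finset.range k, (x - (Q1 q m : ℂ)) := by
  rw [pk, Polynomial.eval_prod]
  simp

theorem key_falling (q l k : ℕ) (h : k ≤ l) :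
    (q : ℂ) ^ (k * (k - 1) / 2) * (Qf q l : ℂ) = (Qf q (l - k) : ℂ) * (pk q k).eval (Q1 q l : ℂ) := by
  induction k with
  | zero => simp [pk]
  | succ k ih =>
    have ih := ih (by omega)
    rw [E_succ, pk_eval, Finset.prod_range_succ, ← pk_eval]
    have h1 : l - k = (l - (k + 1)) + 1 := by omega
    have h2 : Qf q (l - k) = Qf q (l - (k + 1)) * Q1 q (l - k) := by
      rw [h1, Qf_succ]
    have h3 : (Q1 q l : ℂ) - (Q1 q k : ℂ) = (q : ℂ) ^ k * (Q1 q (l - k) : ℂ) := by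
      have := Q1_add q k (l - k)
      rw [show k + (l - k) = l by omega] at this
      rw [this]
      push_cast
      ring
    rw [h3]
    rw [h2] at ih
    push_cast at ih
    linear_combination (q : ℂ) ^ k * ih

theorem eval_zero (q l k : ℕ) (h : l < k) : (pk q k).eval (Q1 q l : ℂ) = 0 := by
  rw [pk_eval]
  apply Finset.prod_eq_zero (Finset.mem_range.mpr h)
  ring

theorem fix_one {G : Type*} [Group G] (H : Subgroup G) : Cfsg.fixedPointCharacter H 1 = (Nat.card (G ⧸ H) : ℂ) := by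
  rw [Cfsg.fixedPointCharacter]
  congr 1
  refine Nat.card_congr ((Equiv.subtypeUnivEquiv ?_))
  intro x
  exact one_smul _ _

theorem sum_sub {n : ℕ} (ν : Fin n → ℕ) (hsum : ∑ i, ν i = n) (κ : Equiv.Perm (Fin n))
    (h : ∀ i : Fin n, (κ i).val ≤ ν i + i.val) : ∑ i : Fin n, (ν i + i.val - (κ i).val) = n := by
  have h1 : ∑ i : Fin n, (ν i + i.val - (κ i).val) + ∑ i : Fin n, (κ i).val = ∑ i : Fin n, (ν i + i.val) := by
    rw [← Finset.sum_add_distrib]
    apply Finset.sum_congr rfl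
    intro i _
    have := h i
    omega
  have h2 : ∑ i : Fin n, (κ i).val = ∑ i : Fin n, i.val := Equiv.sum_comp κ (fun i : Fin n => i.val)
  rw [Finset.sum_add_distrib, hsum, h2] at h1
  omega

theorem degree_formula {F : Type*} [Field F] [Fintype F] {n : ℕ} (ν : Fin n → ℕ) (hsum : ∑ i, ν i = n) :
    Cfsg.unipotentCharacterGL n F ν 1 * (Fintype.card F : ℂ) ^ (n * (n - 1) * (n - 2) / 6) *
        ∏ i : Fin n, (Qf (Fintype.card F) (ν i + i.val) : ℂ) =
      (Qf (Fintype.card F) n : ℂ) *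
        ∏ i : Fin n, ∏ j ∈ Finset.Ioi i,
          ((Q1 (Fintype.card F) (ν j + j.val) : ℂ) - (Q1 (Fintype.card F) (ν i + i.val) : ℂ)) := by
  set q := Fintype.card F with hq
  have hE : (q : ℂ) ^ (n * (n - 1) * (n - 2) / 6) = ∏ j : Fin n, (q : ℂ) ^ (j.val * (j.val - 1) / 2) := by
    rw [Finset.prod_pow_eq_pow_sum, ← sum_choose2, Finset.sum_range]
  have hdet : (Matrix.of fun i j : Fin n => (pk q j).eval (Q1 q (ν i + i.val) : ℂ)).det =
      ∏ i : Fin n, ∏ j ∈ Finset.Ioi i,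
          ((Q1 (Fintype.card F) (ν j + j.val) : ℂ) - (Q1 (Fintype.card F) (ν i + i.val) : ℂ)) := by
    rw [← Matrix.det_vandermonde]
    exact (Matrix.det_eval_matrixOfPolynomials_eq_det_vandermonde
      (fun i : Fin n => (Q1 q (ν i + i.val) : ℂ)) (fun j : Fin n => pk q j)
      (fun i => pk_natDegree q i) (fun i => pk_monic q i)).symm
  rw [← hdet, ← Matrix.det_transpose, Matrix.det_apply, Finset.mul_sum, Cfsg.unipotentCharacterGL,
    Finset.sum_mul, Finset.sum_mul]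
  apply Finset.sum_congr rfl
  intro κ _
  have hperm : ∏ j : Fin n, (q : ℂ) ^ (j.val * (j.val - 1) / 2) =
      ∏ i : Fin n, (q : ℂ) ^ ((κ i).val * ((κ i).val - 1) / 2) :=
    (Equiv.prod_comp κ (fun j : Fin n => (q : ℂ) ^ (j.val * (j.val - 1) / 2))).symm
  have hrhs : Equiv.Perm.sign κ • ∏ i : Fin n, (Matrix.transpose (Matrix.of fun i j : Fin n =>
      (pk q j).eval (Q1 q (ν i + i.val) : ℂ))) (κ i) i = ((Equiv.Perm.sign κ : ℤ) : ℂ) *
        ∏ i : Fin n, (pk q (κ i)).eval (Q1 q (ν i + i.val) : ℂ) := by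
    rw [Units.smul_def, zsmul_eq_mul]
    rfl
  rw [hrhs, hE, hperm]
  split_ifs with h
  · have hidx := index_formula (F := F) (fun i => ν i + i.val - (κ i).val) (sum_sub ν hsum κ h)
    rw [← hq] at hidx
    have hidx' : (Nat.card (GL (Fin n) F ⧸ Cfsg.parabolicGL n F (fun i => ν i + i.val - (κ i).val)) : ℂ) *
        ∏ i : Fin n, (Qf q (ν i + i.val - (κ i).val) : ℂ) = (Qf q n : ℂ) := by
      rw [← hidx]
      push_cast
      rfl
    have h1 : (∏ i : Fin n, (q : ℂ) ^ ((κ i).val * ((κ i).val - 1) / 2)) * ∏ i : Fin n, (Qf q (ν i + i.val) : ℂ) =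
        (∏ i : Fin n, (Qf q (ν i + i.val - (κ i).val) : ℂ)) *
          ∏ i : Fin n, (pk q (κ i)).eval (Q1 q (ν i + i.val) : ℂ) := by
      rw [← Finset.prod_mul_distrib, ← Finset.prod_mul_distrib]
      apply Finset.prod_congr rfl
      intro i _
      exact key_falling q _ _ (h i)
    rw [fix_one, ← hidx']
    linear_combination ((Equiv.Perm.sign κ : ℤ) : ℂ) * (Nat.card (GL (Fin n) F ⧸ Cfsg.parabolicGL n F
      (fun i => ν i + i.val - (κ i).val)) : ℂ) * h1
  · push Not at h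
    obtain ⟨i, hi⟩ := h
    have h1 : ∏ i : Fin n, (pk q (κ i)).eval (Q1 q (ν i + i.val) : ℂ) = 0 :=
      Finset.prod_eq_zero (Finset.mem_univ i) (eval_zero q _ _ hi)
    rw [h1]
    ring

end Cfsg.Agent.H15.GLDeg
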