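import Mathlib
import Cfsg.Agent.H15_Orb

set_option autoImplicit false

namespace Cfsg.Agent.H15.Schur

open Cfsg.Agent.H15.Orb

variable (n : ℕ)

/-- coefficient ring -/
abbrev Ar := MvPolynomial (Fin n) ℤ

/-- geometric series -/
noncomputable def geo (i : Fin n) : PowerSeries (Ar n) := PowerSeries.mk (fun m => (MvPolynomial.X i : Ar n) ^ m)

/-- linear factor -/
noncomputable def lin (i : Fin n) : PowerSeries (Ar n) :=
  1 - PowerSeries.C (MvPolynomial.X i : Ar n) * PowerSeries.X

theorem geo_mul_lin (i : Fin n) : geo n i * lin n i = 1 := by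
  ext1 m
  rw [lin, mul_sub, mul_one, map_sub, ← mul_assoc]
  cases m with
  | zero =>
    rw [PowerSeries.coeff_zero_mul_X]
    simp [geo]
  | succ m =>
    rw [PowerSeries.coeff_succ_mul_X, PowerSeries.coeff_mul_C, PowerSeries.coeff_one]
    simp [geo, pow_succ]

/-- complete symmetric generating series -/
noncomputable def hs : PowerSeries (Ar n) := ∏ i : Fin n, geo n i

/-- elementary generating series without variable `k` -/
noncomputable def es (k : Fin n) : PowerSeries (Ar n) := ∏ i ∈ Finset.univ.erase k, lin n i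

theorem hs_mul_es (k : Fin n) : hs n * es n k = geo n k := by
  rw [hs, es, ← Finset.mul_prod_erase Finset.univ _ (Finset.mem_univ k), mul_assoc,
    ← Finset.prod_mul_distrib]
  simp [geo_mul_lin]

/-- complete symmetric polynomials -/
noncomputable def h (m : ℕ) : Ar n := PowerSeries.coeff m (hs n)

/-- shifted version -/
noncomputable def hz (l j : ℕ) : Ar n := if j ≤ l then h n (l - j) else 0

theorem es_coeff (k : Fin n) (m : ℕ) (hm : n ≤ m) : PowerSeries.coeff m (es n k) = 0 := by
  have h1 : es n k = ((∏ i ∈ Finset.univ.erase k,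
      (1 - Polynomial.C (MvPolynomial.X i : Ar n) * Polynomial.X) : Polynomial (Ar n)) : PowerSeries (Ar n)) := by
    rw [es, ← Polynomial.coeToPowerSeries.ringHom_apply, map_prod]
    apply Finset.prod_congr rfl
    intro i _
    rw [lin]
    simp
  rw [h1, Polynomial.coeff_coe]
  apply Polynomial.coeff_eq_zero_of_natDegree_lt
  refine lt_of_le_of_lt (Polynomial.natDegree_prod_le _ _) ?_
  have h2 : ∑ i ∈ Finset.univ.erase k, (1 - Polynomial.C (MvPolynomial.X i : Ar n) * Polynomial.X).natDegree ≤
      ∑ i ∈ Finset.univ.erase k, 1 := by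
    apply Finset.sum_le_sum
    intro i _
    have : (1 - Polynomial.C (MvPolynomial.X i : Ar n) * Polynomial.X : Polynomial (Ar n)) =
      Polynomial.C (-(MvPolynomial.X i : Ar n)) * Polynomial.X + Polynomial.C 1 := by
      simp; ring
    rw [this]
    exact Polynomial.natDegree_linear_le
  rw [Finset.sum_const, Finset.card_erase_of_mem (Finset.mem_univ k), Finset.card_univ, Fintype.card_fin] at h2
  have := k.2
  simp only [smul_eq_mul, mul_one] at h2
  omega

theorem sum_hz (l : ℕ) (k : Fin n) :
    ∑ j : Fin n, hz n l j * PowerSeries.coeff j (es n k) = (MvPolynomial.X k : Ar n) ^ l := by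
  have h1 : PowerSeries.coeff l (hs n * es n k) = (MvPolynomial.X k : Ar n) ^ l := by
    rw [hs_mul_es, geo, PowerSeries.coeff_mk]
  rw [← h1, mul_comm, PowerSeries.coeff_mul, Finset.Nat.sum_antidiagonal_eq_sum_range_succ
    (fun a b => PowerSeries.coeff a (es n k) * PowerSeries.coeff b (hs n))]
  rw [← Fin.sum_univ_eq_sum_range (fun a => PowerSeries.coeff a (es n k) * PowerSeries.coeff (l - a) (hs n))]
  -- both are sums over range (max)
  have e1 : ∑ j : Fin n, hz n l j * PowerSeries.coeff j (es n k) =
      ∑ j ∈ Finset.range (n + l + 1), hz n l j * PowerSeries.coeff j (es n k) := by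
    rw [Fin.sum_univ_eq_sum_range (fun j => hz n l j * PowerSeries.coeff j (es n k))]
    apply Finset.sum_subset
    · intro x hx
      rw [Finset.mem_range] at hx ⊢
      omega
    · intro x _ hx
      rw [Finset.mem_range, not_lt] at hx
      rw [es_coeff n k x hx, mul_zero]
  have e2 : ∑ a : Fin (l + 1), PowerSeries.coeff a (es n k) * PowerSeries.coeff (l - a) (hs n) =
      ∑ j ∈ Finset.range (n + l + 1), hz n l j * PowerSeries.coeff j (es n k) := by
    rw [Fin.sum_univ_eq_sum_range (fun a => PowerSeries.coeff a (es n k) * PowerSeries.coeff (l - a) (hs n))]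
    rw [← Finset.sum_subset (show Finset.range (l + 1) ⊆ Finset.range (n + l + 1) by
      intro x hx
      rw [Finset.mem_range] at hx ⊢
      omega)]
    · apply Finset.sum_congr rfl
      intro x hx
      rw [Finset.mem_range] at hx
      rw [hz, if_pos (by omega), h, mul_comm]
    · intro x _ hx
      rw [Finset.mem_range, not_lt] at hx
      rw [hz, if_neg (by omega), zero_mul]
  rw [e1, e2]

/-- Jacobi-Trudi matrix -/
noncomputable def JT (l : Fin n → ℕ) : Matrix (Fin n) (Fin n) (Ar n) := Matrix.of fun i j => hz n (l i) j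

/-- the matrix of elementary symmetric polynomials -/
noncomputable def EM : Matrix (Fin n) (Fin n) (Ar n) := Matrix.of fun j k => PowerSeries.coeff j.val (es n k)

/-- the alternant -/
noncomputable def Alt (l : Fin n → ℕ) : Matrix (Fin n) (Fin n) (Ar n) :=
  Matrix.of fun i k => (MvPolynomial.X k : Ar n) ^ (l i)

theorem JT_mul_EM (l : Fin n → ℕ) : JT n l * EM n = Alt n l := by
  ext i k
  rw [Matrix.mul_apply]
  congr 1
  exact sum_hz n (l i) k

theorem h_zero : h n 0 = 1 := by
  rw [h, hs, PowerSeries.coeff_zero_eq_constantCoeff_apply, map_prod]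
  apply Finset.prod_eq_one
  intro i _
  rw [geo, ← PowerSeries.coeff_zero_eq_constantCoeff_apply, PowerSeries.coeff_mk, pow_zero]

theorem det_JT_id : (JT n (fun i => i.val)).det = 1 := by
  rw [Matrix.det_of_lowerTriangular]
  · apply Finset.prod_eq_one
    intro i _
    rw [JT, Matrix.of_apply, hz, if_pos le_rfl, Nat.sub_self, h_zero]
  · intro i j hij
    rw [JT, Matrix.of_apply, hz, if_neg]
    have : i < j := hij
    omega

theorem det_EM : (EM n).det = (Alt n (fun i => i.val)).det := by
  rw [← JT_mul_EM, Matrix.det_mul, det_JT_id, one_mul]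

theorem bialternant (l : Fin n → ℕ) : (JT n l).det * (Alt n (fun i => i.val)).det = (Alt n l).det := by
  rw [← det_EM, ← Matrix.det_mul, JT_mul_EM]

/-- exponent vector -/
noncomputable def ev (l : Fin n → ℕ) : Fin n →₀ ℕ := Finsupp.equivFunOnFinite.symm l

theorem ev_apply (l : Fin n → ℕ) (i : Fin n) : ev n l i = l i := rfl

theorem prod_X (l : Fin n → ℕ) : ∏ k, (MvPolynomial.X k : Ar n) ^ (l k) = MvPolynomial.monomial (ev n l) 1 := by
  rw [MvPolynomial.monomial_eq, Finsupp.prod_fintype _ _ (fun i => by simp)]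
  simp [ev_apply]

theorem coeff_alt (l l' : Fin n → ℕ) (hl : StrictMono l) (hl' : StrictMono l') :
    MvPolynomial.coeff (ev n l') (Alt n l).det = if l = l' then 1 else 0 := by
  classical
  rw [Matrix.det_apply, MvPolynomial.coeff_sum]
  have h1 : ∀ σ : Equiv.Perm (Fin n), MvPolynomial.coeff (ev n l')
      (Equiv.Perm.sign σ • ∏ i, Alt n l (σ i) i) = if (fun i => l (σ i)) = l' then (Equiv.Perm.sign σ : ℤ) else 0 := by
    intro σ
    have h2 : ∏ i, Alt n l (σ i) i = MvPolynomial.monomial (ev n (fun i => l (σ i))) 1 := by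
      rw [← prod_X]
      rfl
    rw [h2, Units.smul_def, MvPolynomial.coeff_smul, MvPolynomial.coeff_monomial]
    have h3 : ev n (fun i => l (σ i)) = ev n l' ↔ (fun i => l (σ i)) = l' := by
      rw [ev, ev, EmbeddingLike.apply_eq_iff_eq]
    simp only [h3]
    split_ifs <;> simp
  simp only [h1]
  by_cases hll : l = l'
  · subst hll
    rw [if_pos rfl, Finset.sum_eq_single 1]
    · simp
    · intro σ _ hσ
      rw [if_neg]
      intro h4
      apply hσ
      ext i
      have := congrFun h4 i
      rw [hl.injective this]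
      rfl
    · simp
  · rw [if_neg hll]
    apply Finset.sum_eq_zero
    intro σ _
    rw [if_neg]
    intro h4
    apply hll
    have hr : Set.range l = Set.range l' := by
      rw [← h4]
      exact (σ.surjective.range_comp l).symm
    exact (StrictMono.range_inj hl hl').mp hr

theorem h_eq (m : ℕ) : h n m = ∑ f ∈ Finset.finsuppAntidiag (Finset.univ : Finset (Fin n)) m,
    MvPolynomial.monomial f 1 := by
  rw [h, hs, PowerSeries.coeff_prod]
  apply Finset.sum_congr rfl
  intro f _
  have := prod_X n (fun i => f i)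
  have h2 : ev n (fun i => f i) = f := by
    ext i; rfl
  rw [h2] at this
  rw [← this]
  apply Finset.prod_congr rfl
  intro i _
  rw [geo, PowerSeries.coeff_mk]

theorem coeff_prod_h (a b : Fin n → ℕ) :
    MvPolynomial.coeff (ev n b) (∏ i, h n (a i)) = (Nat.card (Mg a b) : ℤ) := by
  classical
  simp only [h_eq]
  rw [Finset.prod_univ_sum, MvPolynomial.coeff_sum]
  have h1 : ∀ f : Fin n → (Fin n →₀ ℕ), MvPolynomial.coeff (ev n b)
      (∏ i, MvPolynomial.monomial (f i) (1 : ℤ)) = if (∑ i, f i) = ev n b then 1 else 0 := by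
    intro f
    have : ∏ i, MvPolynomial.monomial (f i) (1 : ℤ) = MvPolynomial.monomial (∑ i, f i) 1 := by
      rw [MvPolynomial.monomial_sum_index]
      simp
    rw [this, MvPolynomial.coeff_monomial]
  simp only [h1]
  rw [Finset.sum_ite, Finset.sum_const_zero, add_zero, Finset.sum_const, nsmul_eq_mul, mul_one]
  congr 1
  rw [← Fintype.card_coe, ← Nat.card_eq_fintype_card]
  refine Nat.card_congr
    { toFun := fun f => ⟨fun i j => f.1 i j, ?_, ?_⟩
      invFun := fun c => ⟨fun i => ev n (c.1 i), ?_⟩
      left_inv := ?_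
      right_inv := ?_ }
  · intro i
    have := f.2
    rw [Finset.mem_filter, Fintype.mem_piFinset] at this
    have h2 := this.1 i
    rw [Finset.mem_finsuppAntidiag] at h2
    exact h2.1
  · intro j
    have := f.2
    rw [Finset.mem_filter] at this
    have h2 := congrArg (fun g : Fin n →₀ ℕ => g j) this.2
    simp only [Finsupp.coe_finsetSum, Finset.sum_apply, ev_apply] at h2
    exact h2
  · rw [Finset.mem_filter, Fintype.mem_piFinset]
    refine ⟨fun i => ?_, ?_⟩
    · rw [Finset.mem_finsuppAntidiag]
      exact ⟨c.2.1 i, Finset.subset_univ _⟩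
    · ext j
      simp only [Finsupp.coe_finsetSum, Finset.sum_apply, ev_apply]
      exact c.2.2 j
  · intro f
    apply Subtype.ext
    funext i
    ext j
    rfl
  · intro c
    rfl

/-- the orthogonality relation -/
theorem orth (l l' : Fin n → ℕ) (hl : StrictMono l) (hl' : StrictMono l') :
    ∑ κ : Equiv.Perm (Fin n), ∑ κ' : Equiv.Perm (Fin n),
      (if (∀ i, (κ i).val ≤ l i) ∧ (∀ i, (κ' i).val ≤ l' i) then
        (Equiv.Perm.sign κ : ℤ) * (Equiv.Perm.sign κ' : ℤ) *
          (Nat.card (Mg (fun i => l i - (κ i).val) (fun i => l' i - (κ' i).val)) : ℤ) else 0) =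
      if l = l' then 1 else 0 := by
  classical
  rw [← coeff_alt n l l' hl hl', ← bialternant]
  rw [← Matrix.det_transpose (JT n l), Matrix.det_apply, Matrix.det_apply, Finset.sum_mul_sum, MvPolynomial.coeff_sum]
  apply Finset.sum_congr rfl
  intro κ _
  rw [MvPolynomial.coeff_sum]
  apply Finset.sum_congr rfl
  intro κ' _
  have h2 : ∏ i, Alt n (fun i => i.val) (κ' i) i = MvPolynomial.monomial (ev n (fun i => (κ' i).val)) 1 := by
    rw [← prod_X]
    rfl
  rw [h2, Units.smul_def, Units.smul_def, smul_mul_smul_comm, MvPolynomial.coeff_smul,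
    MvPolynomial.coeff_mul_monomial']
  have h3 : ev n (fun i => (κ' i).val) ≤ ev n l' ↔ ∀ i, (κ' i).val ≤ l' i := Iff.rfl
  have h4 : ev n l' - ev n (fun i => (κ' i).val) = ev n (fun i => l' i - (κ' i).val) := by
    ext i; rfl
  simp only [h3, h4, mul_one]
  have h5 : ∏ i, Matrix.transpose (JT n l) (κ i) i = if (∀ i, (κ i).val ≤ l i) then
      ∏ i, h n (l i - (κ i).val) else 0 := by
    split_ifs with hc
    · apply Finset.prod_congr rfl
      intro i _
      rw [Matrix.transpose_apply, JT, Matrix.of_apply, hz, if_pos (hc i)]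
    · push Not at hc
      obtain ⟨i, hi⟩ := hc
      apply Finset.prod_eq_zero (Finset.mem_univ i)
      rw [Matrix.transpose_apply, JT, Matrix.of_apply, hz, if_neg (by omega)]
  rw [h5]
  by_cases c1 : ∀ i, (κ i).val ≤ l i
  · by_cases c2 : ∀ i, (κ' i).val ≤ l' i
    · rw [if_pos ⟨c1, c2⟩, if_pos c2, if_pos c1, coeff_prod_h]
      simp
    · rw [if_neg (fun h => c2 h.2), if_neg c2]
      simp
  · rw [if_neg (fun h => c1 h.1), if_neg c1]
    simp

end Cfsg.Agent.H15.Schur
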