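import Mathlib
import Cfsg.Prelude.Def_LinearParabolics
import Cfsg.Prelude.Def_Characters
import Cfsg.Agent.H15_GLDeg
import Cfsg.Agent.H15_Schur
import Cfsg.Agent.H3_CharPerm2
import Cfsg.Agent.H3_CharComplete

set_option autoImplicit false

namespace Cfsg.Agent.H15.GLUni

open Cfsg.Agent.H15.Orb Cfsg.Agent.H15.GLCard Cfsg.Agent.H15.GLDeg Cfsg.Agent.H15.Schur
open Cfsg.Agent.H3.CharIrr Cfsg.Agent.H3.CharComplete Cfsg.Agent.H3.CharPerm2
open scoped MatrixGroups

variable {F : Type*} [Field F] [Fintype F] {n : ℕ}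

theorem ci_par [Fintype (GL (Fin n) F)] (μ ν : Fin n → ℕ) (hμ : ∑ i, μ i = n) (hν : ∑ i, ν i = n) :
    Cfsg.classInner (Cfsg.fixedPointCharacter (Cfsg.parabolicGL n F μ))
      (Cfsg.fixedPointCharacter (Cfsg.parabolicGL n F ν)) = (Nat.card (Mg μ ν) : ℂ) := by
  rw [← gl_orbits (F := F) μ ν hμ hν]
  exact ci_perm_perm (G := GL (Fin n) F) (GL (Fin n) F ⧸ Cfsg.parabolicGL n F μ)
    (GL (Fin n) F ⧸ Cfsg.parabolicGL n F ν)

/-- the coefficient of a permutation in the alternating sum -/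
noncomputable def cf {n : ℕ} (ν : Fin n → ℕ) (κ : Equiv.Perm (Fin n)) : ℤ :=
  if ∀ i : Fin n, (κ i).val ≤ ν i + i.val then (Equiv.Perm.sign κ : ℤ) else 0

theorem uni_eq (ν : Fin n → ℕ) : Cfsg.unipotentCharacterGL n F ν =
    ∑ κ : Equiv.Perm (Fin n), (cf ν κ : ℂ) •
      Cfsg.fixedPointCharacter (Cfsg.parabolicGL n F fun i => ν i + i.val - (κ i).val) := by
  funext g
  rw [Cfsg.unipotentCharacterGL, Finset.sum_apply]
  apply Finset.sum_congr rfl
  intro κ _
  rw [Pi.smul_apply, cf, smul_eq_mul]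
  split_ifs
  · rfl
  · simp

theorem lam_strict {n : ℕ} (ν : Fin n → ℕ) (h : Monotone ν) : StrictMono (fun i : Fin n => ν i + i.val) := by
  intro a b hab
  have h1 := h hab.le
  have h2 : a.val < b.val := hab
  simp only
  omega

theorem ci_uni [Fintype (GL (Fin n) F)] (ν ν' : Fin n → ℕ) (hm : Monotone ν) (hs : ∑ i, ν i = n)
    (hm' : Monotone ν') (hs' : ∑ i, ν' i = n) :
    Cfsg.classInner (Cfsg.unipotentCharacterGL n F ν) (Cfsg.unipotentCharacterGL n F ν') =
      if ν = ν' then 1 else 0 := by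
  classical
  have horth := orth n (fun i => ν i + i.val) (fun i => ν' i + i.val) (lam_strict ν hm) (lam_strict ν' hm')
  have hiff : (fun i : Fin n => ν i + i.val) = (fun i => ν' i + i.val) ↔ ν = ν' := by
    constructor
    · intro h
      funext i
      have := congrFun h i
      omega
    · rintro rfl
      rfl
  rw [uni_eq, uni_eq, ci_sum_left]
  have h1 : ((∑ κ : Equiv.Perm (Fin n), ∑ κ' : Equiv.Perm (Fin n),
      (if (∀ i : Fin n, (κ i).val ≤ ν i + i.val) ∧ (∀ i : Fin n, (κ' i).val ≤ ν' i + i.val) then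
        (Equiv.Perm.sign κ : ℤ) * (Equiv.Perm.sign κ' : ℤ) *
          (Nat.card (Mg (fun i => ν i + i.val - (κ i).val) (fun i => ν' i + i.val - (κ' i).val)) : ℤ) else 0) : ℤ) : ℂ) =
      if ν = ν' then 1 else 0 := by
    rw [horth]
    simp only [hiff]
    split_ifs <;> simp
  rw [← h1]
  push_cast
  apply Finset.sum_congr rfl
  intro κ _
  rw [ci_smul_left, ci_sum_right, Finset.mul_sum]
  apply Finset.sum_congr rfl
  intro κ' _
  rw [ci_smul_right]
  by_cases c1 : ∀ i : Fin n, (κ i).val ≤ ν i + i.val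
  · by_cases c2 : ∀ i : Fin n, (κ' i).val ≤ ν' i + i.val
    · rw [ci_par _ _ (sum_sub ν hs κ c1) (sum_sub ν' hs' κ' c2), if_pos ⟨c1, c2⟩, cf, cf, if_pos c1, if_pos c2]
      simp
      ring
    · rw [if_neg (fun h => c2 h.2), cf, cf, if_neg c2]
      simp
  · rw [if_neg (fun h => c1 h.1), cf, cf, if_neg c1]
    simp

theorem Q1_strict {q : ℕ} (hq : 1 ≤ q) {a b : ℕ} (h : a < b) : Q1 q a < Q1 q b := by
  rw [Q1, Q1]
  apply Finset.sum_lt_sum_of_subset (i := a)
  · intro x hx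
    rw [Finset.mem_range] at hx ⊢
    omega
  · rwa [Finset.mem_range]
  · simp
  · exact pow_pos (by omega) _
  · intro j _ _
    exact Nat.zero_le _

theorem Qf_pos {q : ℕ} (hq : 1 ≤ q) (m : ℕ) : 0 < Qf q m := by
  rw [Qf]
  apply Finset.prod_pos
  intro j _
  apply Finset.sum_pos
  · intro i _
    exact pow_pos (by omega) _
  · simp

theorem degree_pos (ν : Fin n → ℕ) (hm : Monotone ν) (hs : ∑ i, ν i = n) :
    ∃ r : ℝ, 0 < r ∧ Cfsg.unipotentCharacterGL n F ν 1 = (r : ℂ) := by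
  have h := degree_formula (F := F) ν hs
  set q := Fintype.card F with hq
  have hq1 : 1 ≤ q := Fintype.card_pos
  have hA : 0 < ((q : ℝ) ^ (n * (n - 1) * (n - 2) / 6) * ∏ i : Fin n, (Qf q (ν i + i.val) : ℝ)) := by
    apply mul_pos
    · exact pow_pos (by exact_mod_cast hq1) _
    · apply Finset.prod_pos
      intro i _
      exact_mod_cast Qf_pos hq1 _
  have hB : 0 < ((Qf q n : ℝ) * ∏ i : Fin n, ∏ j ∈ Finset.Ioi i,
          ((Q1 q (ν j + j.val) : ℝ) - (Q1 q (ν i + i.val) : ℝ))) := by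
    apply mul_pos
    · exact_mod_cast Qf_pos hq1 _
    · apply Finset.prod_pos
      intro i _
      apply Finset.prod_pos
      intro j hj
      rw [Finset.mem_Ioi] at hj
      rw [sub_pos]
      exact_mod_cast Q1_strict hq1 (lam_strict ν hm hj)
  refine ⟨_, div_pos hB hA, ?_⟩
  have hA' : ((q : ℂ) ^ (n * (n - 1) * (n - 2) / 6) * ∏ i : Fin n, (Qf q (ν i + i.val) : ℂ)) ≠ 0 := by
    have : ((q : ℂ) ^ (n * (n - 1) * (n - 2) / 6) * ∏ i : Fin n, (Qf q (ν i + i.val) : ℂ)) =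
      (((q : ℝ) ^ (n * (n - 1) * (n - 2) / 6) * ∏ i : Fin n, (Qf q (ν i + i.val) : ℝ) : ℝ) : ℂ) := by
      push_cast
      rfl
    rw [this]
    exact_mod_cast hA.ne'
  push_cast
  rw [eq_div_iff hA', ← h]
  ring

theorem uni_irr (ν : Fin n → ℕ) (hm : Monotone ν) (hs : ∑ i, ν i = n) :
    Cfsg.IsIrrCharacter (GL (Fin n) F) (Cfsg.unipotentCharacterGL n F ν) := by
  classical
  haveI : Fintype (GL (Fin n) F) := Fintype.ofFinite _
  have hgen : Cfsg.IsGeneralizedCharacter (GL (Fin n) F) (Cfsg.unipotentCharacterGL n F ν) := by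
    rw [uni_eq]
    apply IsGen.sum
    intro κ _
    apply IsGen.intsmul
    apply IsGen.of_char
    exact isChar_perm (GL (Fin n) F) (GL (Fin n) F ⧸ _)
  have h1 : Cfsg.classInner (Cfsg.unipotentCharacterGL n F ν) (Cfsg.unipotentCharacterGL n F ν) = 1 := by
    rw [ci_uni ν ν hm hs hm hs, if_pos rfl]
  rcases isGen_norm_one hgen h1 with h2 | h2
  · exact h2
  · exfalso
    obtain ⟨r, hr, hr1⟩ := degree_pos (F := F) ν hm hs
    obtain ⟨m, ρ, _, hρ⟩ := h2
    have h3 := congrFun hρ 1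
    rw [Representation.char_one] at h3
    simp only [Pi.neg_apply, hr1] at h3
    have h4 : (m : ℝ) = -r := by
      have : ((m : ℝ) : ℂ) = ((-r : ℝ) : ℂ) := by
        push_cast
        simpa using h3
      exact_mod_cast this
    have : (0 : ℝ) ≤ m := Nat.cast_nonneg m
    linarith

theorem uni_inj (ν ν' : Fin n → ℕ) (hm : Monotone ν) (hs : ∑ i, ν i = n)
    (hm' : Monotone ν') (hs' : ∑ i, ν' i = n)
    (h : Cfsg.unipotentCharacterGL n F ν = Cfsg.unipotentCharacterGL n F ν') : ν = ν' := by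
  classical
  haveI : Fintype (GL (Fin n) F) := Fintype.ofFinite _
  have h1 := ci_uni (F := F) ν ν hm hs hm hs
  have h2 := ci_uni (F := F) ν ν' hm hs hm' hs'
  rw [← h, h1, if_pos rfl] at h2
  by_contra hne
  rw [if_neg hne] at h2
  exact one_ne_zero h2

end Cfsg.Agent.H15.GLUni
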