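import Mathlib
import Cfsg.Prelude.Def_Sz
import Cfsg.Agent.H15_Laws

set_option autoImplicit false

namespace Cfsg.Agent.H15.LawsSz

open Polynomial Matrix Cfsg.Agent.H15.Laws

theorem deg_mul_lt {K : Type*} [Field K] (h z h' y : K[X]) (hy : y ≠ 0) (hh' : h' ≠ 0)
    (h1 : h.natDegree ≤ h'.natDegree) (h2 : z.degree < y.degree) :
    (h * z).degree < (h' * y).degree := by
  have h3 : h' * y ≠ 0 := mul_ne_zero hh' hy
  by_cases hz : h * z = 0
  · rw [hz, Polynomial.degree_zero, bot_lt_iff_ne_bot]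
    exact fun h => h3 (Polynomial.degree_eq_bot.mp h)
  · have hh0 : h ≠ 0 := left_ne_zero_of_mul hz
    have hz0 : z ≠ 0 := right_ne_zero_of_mul hz
    rw [Polynomial.degree_eq_natDegree hz, Polynomial.degree_eq_natDegree h3,
      Polynomial.natDegree_mul hh0 hz0, Polynomial.natDegree_mul hh' hy]
    have : z.natDegree < y.natDegree := Polynomial.natDegree_lt_natDegree hz0 h2
    exact_mod_cast (by omega : h.natDegree + z.natDegree < h'.natDegree + y.natDegree)

theorem deg_mul_lt' {K : Type*} [Field K] (h h' y : K[X]) (hy : y ≠ 0) (hh' : h' ≠ 0)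
    (h1 : h.natDegree < h'.natDegree) :
    (h * y).degree < (h' * y).degree := by
  have h3 : h' * y ≠ 0 := mul_ne_zero hh' hy
  by_cases hz : h * y = 0
  · rw [hz, Polynomial.degree_zero, bot_lt_iff_ne_bot]
    exact fun h => h3 (Polynomial.degree_eq_bot.mp h)
  · have hh0 : h ≠ 0 := left_ne_zero_of_mul hz
    rw [Polynomial.degree_eq_natDegree hz, Polynomial.degree_eq_natDegree h3,
      Polynomial.natDegree_mul hh0 hy, Polynomial.natDegree_mul hh' hy]
    exact_mod_cast (by omega : h.natDegree + y.natDegree < h'.natDegree + y.natDegree)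

/-- central unipotent matrices -/
def uMat {R : Type*} [CommRing R] (h k : R) : Matrix (Fin 4) (Fin 4) R :=
  !![1, 0, h, k; 0, 1, 0, h; 0, 0, 1, 0; 0, 0, 0, 1]

/-- antidiagonal matrix -/
def wMat (R : Type*) [CommRing R] : Matrix (Fin 4) (Fin 4) R :=
  !![0, 0, 0, 1; 0, 0, 1, 0; 0, 1, 0, 0; 1, 0, 0, 0]

theorem uMat_mul {R : Type*} [CommRing R] (h k h' k' : R) :
    uMat h k * uMat h' k' = uMat (h + h') (k + k') := by
  ext i j
  fin_cases i <;> fin_cases j <;> simp [uMat, Matrix.mul_apply, Fin.sum_univ_four, add_comm]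

theorem uMat_zero {R : Type*} [CommRing R] : uMat (0 : R) 0 = 1 := by
  ext i j
  fin_cases i <;> fin_cases j <;> simp [uMat]

theorem wMat_mul {R : Type*} [CommRing R] : wMat R * wMat R = 1 := by
  ext i j
  fin_cases i <;> fin_cases j <;> simp [wMat, Matrix.mul_apply, Fin.sum_univ_four]

/-- the unit -/
def uU {R : Type*} [CommRing R] (h k : R) : (Matrix (Fin 4) (Fin 4) R)ˣ :=
  ⟨uMat h k, uMat (-h) (-k), by rw [uMat_mul]; simp [uMat_zero], by rw [uMat_mul]; simp [uMat_zero]⟩

/-- the Weyl unit -/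
def wU (R : Type*) [CommRing R] : (Matrix (Fin 4) (Fin 4) R)ˣ :=
  ⟨wMat R, wMat R, wMat_mul, wMat_mul⟩

theorem uU_coe {R : Type*} [CommRing R] (h k : R) :
    ((uU h k : (Matrix (Fin 4) (Fin 4) R)ˣ) : Matrix (Fin 4) (Fin 4) R) = uMat h k := rfl
theorem wU_coe {R : Type*} [CommRing R] :
    ((wU R : (Matrix (Fin 4) (Fin 4) R)ˣ) : Matrix (Fin 4) (Fin 4) R) = wMat R := rfl

theorem uU_mul {R : Type*} [CommRing R] (h k h' k' : R) :
    uU h k * uU h' k' = uU (h + h') (k + k') := by
  apply Units.ext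
  rw [Units.val_mul, uU_coe, uU_coe, uU_coe, uMat_mul]

theorem uU_inv {R : Type*} [CommRing R] (h k : R) : (uU h k)⁻¹ = uU (-h) (-k) := by
  apply Units.ext
  rfl

theorem wU_inv {R : Type*} [CommRing R] : (wU R)⁻¹ = wU R := by
  apply Units.ext
  rfl

/-- generic elements -/
noncomputable def xSz (K : Type*) [Field K] (E j : ℕ) : (Matrix (Fin 4) (Fin 4) K[X])ˣ :=
  uU (X ^ fe j) (X ^ (fe j * E)) * (wU _ * uU (X ^ ge j) (X ^ (ge j * E)))

theorem mulVec_uw {R : Type*} [CommRing R] (h k : R) (v : Fin 4 → R) :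
    ((wU R * uU h k : (Matrix (Fin 4) (Fin 4) R)ˣ) : Matrix (Fin 4) (Fin 4) R).mulVec v =
      ![v 3, v 2, v 1 + h * v 3, v 0 + h * v 2 + k * v 3] := by
  rw [Units.val_mul, wU_coe, uU_coe]
  ext i
  fin_cases i <;>
    simp [wMat, uMat, Matrix.mulVec, dotProduct, Fin.sum_univ_four, Matrix.mul_apply]

theorem xSz_word (K : Type*) [Field K] (E : ℕ) (hE : 2 ≤ E) (L : List (ℕ × Bool)) (a : ℕ × Bool)
    (hred : FreeGroup.IsReduced (a :: L)) :
    ∃ k, k + cb a ≤ 2 * ((a :: L).map cb).sum ∧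
      ((((a :: L).map fun x => cond x.2 (xSz K E x.1) (xSz K E x.1)⁻¹).prod :
        (Matrix (Fin 4) (Fin 4) K[X])ˣ) : Matrix (Fin 4) (Fin 4) K[X]) 3 0 ≠ 0 ∧
      (((((a :: L).map fun x => cond x.2 (xSz K E x.1) (xSz K E x.1)⁻¹).prod :
        (Matrix (Fin 4) (Fin 4) K[X])ˣ) : Matrix (Fin 4) (Fin 4) K[X]) 3 0).natDegree ≤ k * E := by
  have hE0 : E ≠ 0 := by omega
  have := pingpong (G := (Matrix (Fin 4) (Fin 4) K[X])ˣ) (V := Fin 4 → K[X])
    (fun g v => (g : Matrix (Fin 4) (Fin 4) K[X]).mulVec v)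
    (by intro g h v; rw [Units.val_mul, Matrix.mulVec_mulVec])
    (fun x => cond x.2 (xSz K E x.1) (xSz K E x.1)⁻¹)
    (fun x => uU (lp K x) (expand K E (lp K x)))
    (fun x => wU _ * uU (rp K x) (expand K E (rp K x)))
    (by
      rintro ⟨j, s⟩
      cases s
      · simp [xSz, Laws.lp, rp, uU_inv, wU_inv, mul_assoc, ← pow_mul, mul_comm]
      · simp [xSz, Laws.lp, rp, ← pow_mul, mul_comm])
    cb (fun k => {v | v 3 ≠ 0 ∧ (v 0).degree < (v 3).degree ∧ (v 1).degree < (v 3).degree ∧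
      (v 2).degree < (v 3).degree ∧ (v 3).natDegree ≤ k * E})
    ![1, 0, 0, 0]
    (by
      intro a
      show Matrix.mulVec _ _ ∈ _
      rw [mulVec_uw]
      simp)
    (by
      intro a b hab k v hv
      obtain ⟨h1, h2, h3, h4, h5⟩ := hv
      obtain ⟨d1, d2⟩ := deg_mid (K := K) a b hab
      show Matrix.mulVec _ _ ∈ _
      rw [mul_assoc, uU_mul, mulVec_uw, ← map_add]
      set h := rp K a + lp K b with hh
      have hne : h ≠ 0 := by
        intro h0
        rw [h0] at d1
        simp at d1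
      have hE1 : (expand K E h).natDegree = h.natDegree * E := Polynomial.natDegree_expand E h
      have hne' : expand K E h ≠ 0 := by
        rwa [Ne, Polynomial.expand_eq_zero (by omega)]
      have hlt : h.natDegree < (expand K E h).natDegree := by
        rw [hE1]
        nlinarith
      have k1 : (v 0 + h * v 2).degree < (expand K E h * v 3).degree := by
        refine lt_of_le_of_lt (Polynomial.degree_add_le _ _) (max_lt ?_ ?_)
        · have := deg_mul_lt 1 (v 0) (expand K E h) (v 3) h1 hne' (by simp) h2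
          simpa using this
        · exact deg_mul_lt h (v 2) (expand K E h) (v 3) h1 hne' hlt.le h4
      have k2 : (v 0 + h * v 2 + expand K E h * v 3).degree = (expand K E h * v 3).degree :=
        Polynomial.degree_add_eq_right_of_degree_lt k1
      have hne3 : expand K E h * v 3 ≠ 0 := mul_ne_zero hne' h1
      have k3 : v 0 + h * v 2 + expand K E h * v 3 ≠ 0 := by
        intro h0
        rw [h0, Polynomial.degree_zero] at k2
        exact hne3 (Polynomial.degree_eq_bot.mp k2.symm)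
      have k4 : (v 3).degree < (expand K E h * v 3).degree := by
        have := deg_mul_lt' 1 (expand K E h) (v 3) h1 hne' (by
          rw [Polynomial.natDegree_one]; omega)
        simpa using this
      have k5 : (v 1 + h * v 3).degree < (expand K E h * v 3).degree := by
        refine lt_of_le_of_lt (Polynomial.degree_add_le _ _) (max_lt (h3.trans k4) ?_)
        exact deg_mul_lt' h (expand K E h) (v 3) h1 hne' hlt
      have k6 : (v 0 + h * v 2 + expand K E h * v 3).natDegree ≤ (k + cb a + cb b) * E := by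
        rw [Polynomial.natDegree_eq_of_degree_eq k2, Polynomial.natDegree_mul hne' h1, hE1]
        have hm : max (cb a) (cb b) ≤ cb a + cb b := by
          rcases le_total (cb a) (cb b) with h | h
          · simp [max_eq_right h]
          · simp [max_eq_left h]
        have : h.natDegree * E ≤ (cb a + cb b) * E := Nat.mul_le_mul_right _ (d2.trans hm)
        linarith [add_mul (k + cb a) (cb b) E, add_mul k (cb a) E, add_mul (cb a) (cb b) E]
      refine ⟨k3, ?_, ?_, ?_, k6⟩
      · show (v 3).degree < (v 0 + h * v 2 + expand K E h * v 3).degree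
        rw [k2]; exact k4
      · show (v 2).degree < (v 0 + h * v 2 + expand K E h * v 3).degree
        rw [k2]; exact h4.trans k4
      · show (v 1 + h * v 3).degree < (v 0 + h * v 2 + expand K E h * v 3).degree
        rw [k2]; exact k5)
    L a hred
  obtain ⟨k, hk, v, ⟨hv1, hv2, hv3, hv4, hv5⟩, hv⟩ := this
  refine ⟨k, hk, ?_⟩
  have h1 := congrFun hv 3
  rw [uU_coe] at h1
  simp only [Matrix.mulVec, dotProduct, Fin.sum_univ_four, uMat] at h1
  simp [-List.map_cons] at h1
  rw [h1]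
  exact ⟨hv1, hv5⟩

/-- membership of central unipotents in the Suzuki group -/
theorem uU_mem_Sz {F : Type*} [Field F] [CharP F 2] (E : ℕ) (b : F) (hb : (b ^ E) ^ E = b ^ 2)
    (hE : E ≠ 0) :
    uU b (b ^ E) ∈ Cfsg.Lie.Sz F E := by
  apply Subgroup.subset_closure
  have h2 : (2 : F) = 0 := by exact_mod_cast CharP.cast_eq_zero F 2
  refine ⟨?_, ?_⟩
  · intro u v
    show Cfsg.Lie.altForm4 ((uMat b (b ^ E)).mulVec u) ((uMat b (b ^ E)).mulVec v) = _
    simp only [Cfsg.Lie.altForm4, uMat, Matrix.mulVec, dotProduct, Fin.sum_univ_four]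
    simp
    linear_combination (b * u 2 * v 3 + b ^ E * u 3 * v 3 + b * u 3 * v 2) * h2
  · rw [uU_coe]
    ext i j
    fin_cases i <;> fin_cases j <;>
      simp [Cfsg.Lie.star4, Cfsg.Lie.pairOf, uMat, hE, hb] <;>
      first | ring1 | linear_combination (-b ^ E) * h2

theorem wU_mem_Sz {F : Type*} [Field F] [CharP F 2] (E : ℕ) (hE : E ≠ 0) :
    wU F ∈ Cfsg.Lie.Sz F E := by
  apply Subgroup.subset_closure
  have h2 : (2 : F) = 0 := by exact_mod_cast CharP.cast_eq_zero F 2
  have h3 : (-1 : F) = 1 := by linear_combination -h2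
  refine ⟨?_, ?_⟩
  · intro u v
    show Cfsg.Lie.altForm4 ((wMat F).mulVec u) ((wMat F).mulVec v) = _
    simp only [Cfsg.Lie.altForm4, wMat, Matrix.mulVec, dotProduct, Fin.sum_univ_four]
    simp
    ring
  · rw [wU_coe]
    ext i j
    fin_cases i <;> fin_cases j <;>
      simp [Cfsg.Lie.star4, Cfsg.Lie.pairOf, wMat, hE, h3]


theorem char_two_of_card {F : Type*} [Field F] [Fintype F] (k : ℕ)
    (h : Fintype.card F = 2 ^ (k + 1)) : CharP F 2 := by
  obtain ⟨p, hp⟩ := CharP.exists F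
  haveI := hp
  obtain ⟨n, hpp, hn⟩ := FiniteField.card F p
  have : p ∣ 2 := by
    have h1 : p ∣ 2 ^ (k + 1) := by
      rw [← h, hn]
      exact dvd_pow_self p n.ne_zero
    exact hpp.dvd_of_dvd_pow h1
  have : p = 2 := (Nat.prime_dvd_prime_iff_eq hpp Nat.prime_two).mp this
  subst this
  exact hp

theorem pow_card_sz {F : Type*} [Field F] [Fintype F] (m : ℕ)
    (h : Fintype.card F = 2 ^ (2 * m + 1)) (b : F) :
    (b ^ (2 ^ (m + 1))) ^ (2 ^ (m + 1)) = b ^ 2 := by
  rw [← pow_mul, ← pow_add]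
  have : 2 ^ (m + 1 + (m + 1)) = (2 ^ (2 * m + 1)) * 2 := by ring
  rw [this, pow_mul, ← h, FiniteField.pow_card]

/-- a nontrivial word is not a law of large Suzuki groups -/
theorem sz_word (w : FreeGroup ℕ) (hw : w ≠ 1) :
    ∃ N : ℕ, ∀ (F : Type*) [Field F] [Fintype F] (m : ℕ), 1 ≤ m → N ≤ m →
      Fintype.card F = 2 ^ (2 * m + 1) →
      ∃ f : ℕ → ↥(Cfsg.Lie.Sz F (2 ^ (m + 1))), FreeGroup.lift f w ≠ 1 := by
  have hL : w.toWord ≠ [] := fun h => hw (FreeGroup.toWord_eq_nil_iff.mp h)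
  obtain ⟨a, L, haL⟩ := List.exists_cons_of_ne_nil hL
  have hred : FreeGroup.IsReduced (a :: L) := haL ▸ FreeGroup.isReduced_toWord
  refine ⟨2 * ((a :: L).map cb).sum, fun F _ _ m hm1 hN hF => ?_⟩
  haveI := char_two_of_card _ hF
  have h2 : (2 : F) = 0 := by exact_mod_cast CharP.cast_eq_zero F 2
  have h2' : (-1 : F) = 1 := by linear_combination -h2
  set E := 2 ^ (m + 1) with hE
  have hE2 : 2 ≤ E := by
    rw [hE, pow_succ]
    have : 1 ≤ 2 ^ m := Nat.one_le_two_pow
    omega
  obtain ⟨k, hk, h1, h3⟩ := xSz_word F E hE2 L a hred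
  obtain ⟨t, ht⟩ := Polynomial.exists_eval_ne_zero_of_natDegree_lt_card _ h1
    (by
      rw [Cardinal.mk_fintype]
      have h4 : k * E < Fintype.card F := by
        rw [hF, hE]
        have h5 : k < 2 ^ m := by
          have : k ≤ m := by omega
          exact lt_of_le_of_lt this Nat.lt_two_pow_self
        calc k * 2 ^ (m + 1) < 2 ^ m * 2 ^ (m + 1) := by
              apply Nat.mul_lt_mul_of_pos_right h5 (by positivity)
          _ = 2 ^ (2 * m + 1) := by ring
      exact_mod_cast lt_of_le_of_lt h3 h4)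
  let ev : (Matrix (Fin 4) (Fin 4) F[X])ˣ →* (Matrix (Fin 4) (Fin 4) F)ˣ :=
    Units.map (Polynomial.evalRingHom t).mapMatrix.toMonoidHom
  have hmem : ∀ j, ev (xSz F E j) ∈ Cfsg.Lie.Sz F E := by
    intro j
    have e1 : ∀ c : ℕ, ev (uU (X ^ c) (X ^ (c * E))) = uU (t ^ c) ((t ^ c) ^ E) := by
      intro c
      apply Units.ext
      show (Polynomial.evalRingHom t).mapMatrix (uMat _ _) = uMat _ _
      ext i j
      fin_cases i <;> fin_cases j <;> simp [uMat, pow_mul]
    have e2 : ev (wU _) = wU F := by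
      apply Units.ext
      show (Polynomial.evalRingHom t).mapMatrix (wMat _) = wMat _
      ext i j
      fin_cases i <;> fin_cases j <;> simp [wMat]
    rw [xSz, map_mul, map_mul, e1, e1, e2]
    have hb := pow_card_sz m hF
    rw [← hE] at hb
    exact mul_mem (uU_mem_Sz E _ (hb _) (by omega))
      (mul_mem (wU_mem_Sz E (by omega)) (uU_mem_Sz E _ (hb _) (by omega)))
  refine ⟨fun j => ⟨ev (xSz F E j), hmem j⟩, fun hone => ?_⟩
  have h4 : (Cfsg.Lie.Sz F E).subtype (FreeGroup.lift (fun j => (⟨ev (xSz F E j), hmem j⟩ :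
      ↥(Cfsg.Lie.Sz F E))) w) = ev (FreeGroup.lift (xSz F E) w) := by
    have : (Cfsg.Lie.Sz F E).subtype.comp (FreeGroup.lift (fun j => (⟨ev (xSz F E j), hmem j⟩ :
      ↥(Cfsg.Lie.Sz F E)))) = ev.comp (FreeGroup.lift (xSz F E)) := by
      ext1 j
      simp
    exact DFunLike.congr_fun this w
  rw [hone, map_one] at h4
  have h5 : FreeGroup.lift (xSz F E) w =
      (((a :: L).map fun x => cond x.2 (xSz F E x.1) (xSz F E x.1)⁻¹).prod) := by
    rw [← haL, ← FreeGroup.lift_mk, FreeGroup.mk_toWord]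
  rw [h5] at h4
  apply ht
  have h6 := congrArg (fun g : (Matrix (Fin 4) (Fin 4) F)ˣ => (g : Matrix (Fin 4) (Fin 4) F) 3 0) h4
  simp only [Units.val_one] at h6
  have h7 : (1 : Matrix (Fin 4) (Fin 4) F) 3 0 = 0 := by simp
  rw [h7] at h6
  exact h6.symm

end Cfsg.Agent.H15.LawsSz
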