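import Mathlib
import Cfsg.Agent.H15_PSL2

set_option autoImplicit false
open Matrix Module

namespace Cfsg.Agent.H15.PGL

open Cfsg.Agent.H15.M2 Cfsg.Agent.H15.TOR

variable {F : Type*} [Field F] [Fintype F] [DecidableEq F]

local notation "M₂" => Matrix (Fin 2) (Fin 2) F
local notation "GL₂" => Matrix.GeneralLinearGroup (Fin 2) F

theorem center_gl (g : GL₂) : g ∈ Subgroup.center GL₂ ↔ ¬ NS (g : M₂) := by
  rw [Subgroup.mem_center_iff]
  constructor
  · intro h hn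
    let u : GL₂ := Matrix.GeneralLinearGroup.mkOfDetNeZero !![1, 1; 0, 1] (by rw [Matrix.det_fin_two_of]; simp)
    let l : GL₂ := Matrix.GeneralLinearGroup.mkOfDetNeZero !![1, 0; 1, 1] (by rw [Matrix.det_fin_two_of]; simp)
    have hu : (!![1, 1; 0, 1] : M₂) * (g : M₂) = (g : M₂) * !![1, 1; 0, 1] := congrArg Units.val (h u)
    have hl : (!![1, 0; 1, 1] : M₂) * (g : M₂) = (g : M₂) * !![1, 0; 1, 1] := congrArg Units.val (h l)
    have e0 := congrFun (congrFun hu 0) 0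
    have e1 := congrFun (congrFun hu 0) 1
    have e2 := congrFun (congrFun hl 0) 0
    simp [Matrix.mul_apply, Fin.sum_univ_two] at e0 e1 e2
    apply hn
    refine ⟨e2, e0, ?_⟩
    linear_combination -e1
  · intro hn h
    obtain ⟨a, rfl⟩ := eq_scG hn
    apply Units.ext
    show (h : M₂) * (scG a : M₂) = (scG a : M₂) * (h : M₂)
    rw [scG_coe, Matrix.mul_smul, Matrix.smul_mul, Matrix.mul_one, Matrix.one_mul]

theorem card_center_gl : Nat.card (Subgroup.center GL₂) = Fintype.card F - 1 := by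
  rw [← Nat.card_eq_fintype_card, ← Nat.card_units]
  symm
  refine Nat.card_congr (Equiv.ofBijective (fun a => ⟨scG a, (center_gl _).mpr (not_NS_scG a)⟩) ⟨?_, ?_⟩)
  · intro a b h
    have h1 : scG a = scG b := congrArg Subtype.val h
    exact scG_inj (h1 ▸ IsConj.refl _)
  · rintro ⟨g, hg⟩
    obtain ⟨a, rfl⟩ := eq_scG ((center_gl g).mp hg)
    exact ⟨a, rfl⟩

theorem card_gl2 : Nat.card GL₂ = (Fintype.card F ^ 2 - 1) * (Fintype.card F ^ 2 - Fintype.card F) := by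
  have h2 : Nat.card GL₂ = ∏ i : Fin 2, (Fintype.card F ^ 2 - Fintype.card F ^ (i : ℕ)) := Matrix.card_GL_field 2
  rw [h2, Fin.prod_univ_two]
  simp

/-- centralizer of an irreducible matrix -/
theorem card_cent_ell {Z : GL₂} (hZ : Ell (Z : M₂)) : Nat.card (Subgroup.centralizer ({Z} : Set GL₂)) = Fintype.card F ^ 2 - 1 := by
  rw [← Nat.card_eq_fintype_card, ← Ell.card_ne hZ]
  symm
  refine Nat.card_congr (Equiv.ofBijective (fun p => ⟨Matrix.GeneralLinearGroup.mkOfDetNeZero (p.1.1 • (1 : M₂) + p.1.2 • (Z : M₂))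
    (by rw [det_nf]; exact p.2), ?_⟩) ⟨?_, ?_⟩)
  · rw [Subgroup.mem_centralizer_singleton_iff]
    apply Units.ext
    exact (comm_iff hZ.ns).mpr ⟨p.1.1, p.1.2, rfl⟩
  · rintro ⟨⟨x, y⟩, hp⟩ ⟨⟨x', y'⟩, hp'⟩ h
    have h1 : x • (1 : M₂) + y • (Z : M₂) = x' • (1 : M₂) + y' • (Z : M₂) := congrArg (fun g : Subgroup.centralizer ({Z} : Set GL₂) => ((g : GL₂) : M₂)) h
    have h2 : y = y' := by
      by_contra hne
      have h3 : (x - x') • (1 : M₂) + (y - y') • (Z : M₂) = 0 := by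
        rw [sub_smul, sub_smul]
        have : x • (1 : M₂) - x' • (1 : M₂) + (y • (Z : M₂) - y' • (Z : M₂)) = (x • (1 : M₂) + y • (Z : M₂)) - (x' • (1 : M₂) + y' • (Z : M₂)) := by abel
        rw [this, h1, sub_self]
      have h4 := NS_alg hZ.ns (x := x - x') (sub_ne_zero.mpr hne)
      rw [h3] at h4
      exact h4 (by simp)
    subst h2
    have h3 : x = x' := by
      have := congrFun (congrFun h1 0) 0
      simpa using this
    subst h3
    rfl
  · rintro ⟨g, hg⟩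
    rw [Subgroup.mem_centralizer_singleton_iff] at hg
    obtain ⟨x, y, hxy⟩ := (comm_iff hZ.ns).mp (congrArg Units.val hg)
    refine ⟨⟨(x, y), ?_⟩, ?_⟩
    · rw [← det_nf, ← hxy]; exact gl_det_ne g
    · apply Subtype.ext
      apply Units.ext
      exact hxy.symm

/-- elements commuting up to sign -/
def DZ (Z : Matrix.GeneralLinearGroup (Fin 2) F) : Subgroup (Matrix.GeneralLinearGroup (Fin 2) F) where
  carrier := {g | (g : M₂) * (Z : M₂) = (Z : M₂) * (g : M₂) ∨ (g : M₂) * (Z : M₂) = -((Z : M₂) * (g : M₂))}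
  one_mem' := Or.inl (by simp)
  mul_mem' := by
    intro a b ha hb
    show ((a * b : GL₂) : M₂) * (Z : M₂) = (Z : M₂) * ((a * b : GL₂) : M₂) ∨ ((a * b : GL₂) : M₂) * (Z : M₂) = -((Z : M₂) * ((a * b : GL₂) : M₂))
    rw [Units.val_mul, Matrix.mul_assoc, ← Matrix.mul_assoc]
    rcases ha with ha | ha <;> rcases hb with hb | hb
    · left; rw [Matrix.mul_assoc, hb, ← Matrix.mul_assoc, ha, Matrix.mul_assoc]
    · right; rw [Matrix.mul_assoc, hb, Matrix.mul_neg, ← Matrix.mul_assoc, ha, Matrix.mul_assoc]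
    · right; rw [Matrix.mul_assoc, hb, ← Matrix.mul_assoc, ha, Matrix.neg_mul, Matrix.mul_assoc]
    · left; rw [Matrix.mul_assoc, hb, Matrix.mul_neg, ← Matrix.mul_assoc, ha, Matrix.neg_mul, neg_neg, Matrix.mul_assoc]
  inv_mem' := by
    intro a ha
    show ((a⁻¹ : GL₂) : M₂) * (Z : M₂) = (Z : M₂) * ((a⁻¹ : GL₂) : M₂) ∨ ((a⁻¹ : GL₂) : M₂) * (Z : M₂) = -((Z : M₂) * ((a⁻¹ : GL₂) : M₂))
    have h1 : ((a⁻¹ : GL₂) : M₂) * (a : M₂) = 1 := by rw [← Units.val_mul, inv_mul_cancel, Units.val_one]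
    have h2 : (a : M₂) * ((a⁻¹ : GL₂) : M₂) = 1 := by rw [← Units.val_mul, mul_inv_cancel, Units.val_one]
    rcases ha with ha | ha
    · left
      calc ((a⁻¹ : GL₂) : M₂) * (Z : M₂) = ((a⁻¹ : GL₂) : M₂) * ((Z : M₂) * (a : M₂)) * ((a⁻¹ : GL₂) : M₂) := by
            rw [Matrix.mul_assoc, Matrix.mul_assoc, h2, Matrix.mul_one]
        _ = _ := by rw [← ha, ← Matrix.mul_assoc, h1, Matrix.one_mul]
    · right
      calc ((a⁻¹ : GL₂) : M₂) * (Z : M₂) = ((a⁻¹ : GL₂) : M₂) * ((Z : M₂) * (a : M₂)) * ((a⁻¹ : GL₂) : M₂) := by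
            rw [Matrix.mul_assoc, Matrix.mul_assoc, h2, Matrix.mul_one]
        _ = -(((a⁻¹ : GL₂) : M₂) * (-((Z : M₂) * (a : M₂))) * ((a⁻¹ : GL₂) : M₂)) := by
            rw [Matrix.mul_neg, Matrix.neg_mul, neg_neg]
        _ = _ := by rw [← ha, ← Matrix.mul_assoc, h1, Matrix.one_mul]

theorem mem_DZ (Z g : GL₂) : g ∈ DZ Z ↔ ((g : M₂) * (Z : M₂) = (Z : M₂) * (g : M₂) ∨ (g : M₂) * (Z : M₂) = -((Z : M₂) * (g : M₂))) := Iff.rfl

theorem cent_le_DZ (Z : GL₂) : Subgroup.centralizer ({Z} : Set GL₂) ≤ DZ Z := by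
  intro g hg
  rw [Subgroup.mem_centralizer_singleton_iff] at hg
  exact Or.inl (congrArg Units.val hg)

theorem center_le_DZ (Z : GL₂) : Subgroup.center GL₂ ≤ DZ Z :=
  (Subgroup.center_le_centralizer _).trans (cent_le_DZ Z)

theorem card_DZ (h2 : (2 : F) ≠ 0) {Z : GL₂} (hZ : Ell (Z : M₂)) (ht : (Z : M₂).trace = 0) : Nat.card (DZ Z) = 2 * (Fintype.card F ^ 2 - 1) := by
  -- an anticommuting element
  let Z' : GL₂ := Matrix.GeneralLinearGroup.mkOfDetNeZero (-(Z : M₂)) (by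
    rw [Matrix.det_neg]; simp [gl_det_ne Z])
  have hZ' : (Z' : M₂) = -(Z : M₂) := rfl
  have hns' : NS (Z' : M₂) := by
    rw [hZ']
    intro h
    apply hZ.ns
    simp at h
    exact h
  have hc : IsConj Z Z' := by
    rw [gl_conj_NS hZ.ns hns', hZ', Matrix.trace_neg, ht, Matrix.det_neg]
    simp
  obtain ⟨x, hx, hxg⟩ := gl_conj_iff.mp hc
  rw [hZ', Matrix.neg_mul] at hxg
  let w : GL₂ := Matrix.GeneralLinearGroup.mkOfDetNeZero x hx
  have hw : (w : M₂) * (Z : M₂) = -((Z : M₂) * (w : M₂)) := hxg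
  have hwinv : w⁻¹ ∈ DZ Z := (DZ Z).inv_mem (Or.inr hw)
  have hidx : (Subgroup.centralizer ({Z} : Set GL₂)).relIndex (DZ Z) = 2 := by
    rw [Subgroup.relIndex, Subgroup.index_eq_two_iff]
    refine ⟨⟨w, Or.inr hw⟩, ?_⟩
    rintro ⟨b, hb⟩
    have hne : ∀ g : GL₂, ¬ ((g : M₂) * (Z : M₂) = (Z : M₂) * (g : M₂) ∧ (g : M₂) * (Z : M₂) = -((Z : M₂) * (g : M₂))) := by
      rintro g ⟨h3, h4⟩
      have h5 : (2 : F) • ((Z : M₂) * (g : M₂)) = 0 := by
        rw [two_smul]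
        nth_rewrite 1 [← h3]
        rw [h4, neg_add_cancel]
      rcases smul_eq_zero.mp h5 with h6 | h6
      · exact h2 h6
      · have h7 := congrArg Matrix.det h6
        rw [Matrix.det_mul] at h7
        simp [gl_det_ne] at h7
    have e1 : (⟨b, hb⟩ : DZ Z) * ⟨w, Or.inr hw⟩ ∈ (Subgroup.centralizer ({Z} : Set GL₂)).subgroupOf (DZ Z) ↔
        (b : M₂) * (Z : M₂) = -((Z : M₂) * (b : M₂)) := by
      rw [Subgroup.mem_subgroupOf, Subgroup.mem_centralizer_singleton_iff]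
      have hb' : (b : M₂) * (Z : M₂) = (Z : M₂) * (b : M₂) ∨ (b : M₂) * (Z : M₂) = -((Z : M₂) * (b : M₂)) := hb
      constructor
      · intro h3
        rcases hb' with hb' | hb'
        · exfalso
          have h4 : ((b * w : GL₂) : M₂) * (Z : M₂) = (Z : M₂) * ((b * w : GL₂) : M₂) := congrArg Units.val h3
          apply hne (b * w) ⟨h4, ?_⟩
          rw [Units.val_mul, Matrix.mul_assoc, hw, Matrix.mul_neg, ← Matrix.mul_assoc, hb', Matrix.mul_assoc]
        · exact hb'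
      · intro h3
        apply Units.ext
        show ((b : M₂) * (w : M₂)) * (Z : M₂) = (Z : M₂) * ((b : M₂) * (w : M₂))
        rw [Matrix.mul_assoc, hw, Matrix.mul_neg, ← Matrix.mul_assoc, h3, Matrix.neg_mul, neg_neg, Matrix.mul_assoc]
    have e2 : (⟨b, hb⟩ : DZ Z) ∈ (Subgroup.centralizer ({Z} : Set GL₂)).subgroupOf (DZ Z) ↔
        (b : M₂) * (Z : M₂) = (Z : M₂) * (b : M₂) := by
      rw [Subgroup.mem_subgroupOf, Subgroup.mem_centralizer_singleton_iff]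
      exact ⟨fun h => congrArg Units.val h, fun h => Units.ext h⟩
    rw [e1, e2]
    have hb' : (b : M₂) * (Z : M₂) = (Z : M₂) * (b : M₂) ∨ (b : M₂) * (Z : M₂) = -((Z : M₂) * (b : M₂)) := hb
    rcases hb' with h3 | h3
    · exact Or.inr ⟨h3, fun h4 => hne b ⟨h3, h4⟩⟩
    · exact Or.inl ⟨h3, fun h4 => hne b ⟨h4, h3⟩⟩
  rw [← relIndex_card _ _ (cent_le_DZ Z), hidx, card_cent_ell hZ]

/-- the projection -/
abbrev PG (F : Type*) [Field F] : Type _ := Matrix.GeneralLinearGroup (Fin 2) F ⧸ Subgroup.center (Matrix.GeneralLinearGroup (Fin 2) F)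

def mkG (F : Type*) [Field F] : Matrix.GeneralLinearGroup (Fin 2) F →* PG F := QuotientGroup.mk' _

theorem mkG_eq_one {g : GL₂} : mkG F g = 1 ↔ ¬ NS (g : M₂) := by
  rw [mkG, QuotientGroup.mk'_apply, QuotientGroup.eq_one_iff, center_gl]

theorem card_PG : Nat.card (PG F) = Fintype.card F * ((Fintype.card F + 1) * (Fintype.card F - 1)) := by
  have hq := Fintype.one_lt_card (α := F)
  have h1 := Subgroup.card_eq_card_quotient_mul_card_subgroup (Subgroup.center GL₂)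
  rw [card_gl2, card_center_gl] at h1
  apply Nat.eq_of_mul_eq_mul_right (show 0 < Fintype.card F - 1 by omega)
  rw [← h1]
  obtain ⟨k, hk⟩ : ∃ k, Fintype.card F = k + 1 := ⟨Fintype.card F - 1, by omega⟩
  rw [hk]
  have e1 : (k + 1) ^ 2 - 1 = k * (k + 2) := by
    rw [show (k + 1) ^ 2 = k * (k + 2) + 1 by ring, Nat.add_sub_cancel]
  have e2 : (k + 1) ^ 2 - (k + 1) = k * (k + 1) := by
    rw [show (k + 1) ^ 2 = k * (k + 1) + (k + 1) by ring, Nat.add_sub_cancel]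
  rw [e1, e2, Nat.add_sub_cancel]
  ring

theorem card_DZ_map (h2 : (2 : F) ≠ 0) {Z : GL₂} (hZ : Ell (Z : M₂)) (ht : (Z : M₂).trace = 0) :
    Nat.card ((DZ Z).map (mkG F)) = 2 * (Fintype.card F + 1) := by
  have hq := Fintype.one_lt_card (α := F)
  have h1 : (mkG F).ker.relIndex (DZ Z) = Nat.card ((DZ Z).map (mkG F)) := Subgroup.relIndex_ker _ _
  have h3 : (mkG F).ker = Subgroup.center GL₂ := QuotientGroup.ker_mk' _
  rw [h3] at h1
  have h4 := relIndex_card _ _ (center_le_DZ Z)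
  rw [h1, card_center_gl, card_DZ h2 hZ ht] at h4
  apply Nat.eq_of_mul_eq_mul_right (show 0 < Fintype.card F - 1 by omega)
  rw [h4]
  obtain ⟨k, hk⟩ : ∃ k, Fintype.card F = k + 1 := ⟨Fintype.card F - 1, by omega⟩
  rw [hk]
  have e1 : (k + 1) ^ 2 - 1 = k * (k + 2) := by
    rw [show (k + 1) ^ 2 = k * (k + 2) + 1 by ring, Nat.add_sub_cancel]
  rw [e1, Nat.add_sub_cancel]
  ring

theorem mat_Q_ne {c : M₂} (hc : Ell c) {v : Fin 2 → F} (hv : v ≠ 0) : Q c v ≠ 0 := by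
  intro h
  have h1 : (X c v).det = 0 := by rw [det_X, h]
  obtain ⟨w, hw, hw'⟩ := Matrix.exists_mulVec_eq_zero_iff.mpr h1
  have e0 := congrFun hw' 0
  have e1 := congrFun hw' 1
  simp only [X, Matrix.mulVec, dotProduct, Fin.sum_univ_two, Matrix.of_apply, Matrix.cons_val', Matrix.cons_val_zero,
    Matrix.cons_val_one, Matrix.cons_val_fin_one, Pi.zero_apply] at e0 e1
  by_cases h2 : w 1 = 0
  · rw [h2, mul_zero, add_zero] at e0 e1
    have h3 : w 0 ≠ 0 := by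
      intro h3
      apply hw
      funext i; fin_cases i <;> assumption
    apply hv
    funext i
    fin_cases i
    · exact (mul_eq_zero.mp e0).resolve_right h3
    · exact (mul_eq_zero.mp e1).resolve_right h3
  · apply hc (-(w 0 / w 1)) v hv
    funext i
    fin_cases i
    · simp [Matrix.mulVec, dotProduct, Fin.sum_univ_two]
      field_simp
      linear_combination e0
    · simp [Matrix.mulVec, dotProduct, Fin.sum_univ_two]
      field_simp
      linear_combination e1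

/-- a common element -/
theorem exists_common (h2 : (2 : F) ≠ 0) {Z₁ Z₂ : GL₂} (h₁ : Ell (Z₁ : M₂)) (s₁ : (Z₁ : M₂) * (Z₁ : M₂) = -1)
    (s₂ : (Z₂ : M₂) * (Z₂ : M₂) = -1) : ∃ W : GL₂, NS (W : M₂) ∧ W ∈ DZ Z₁ ∧ W ∈ DZ Z₂ := by
  by_cases hc : (Z₁ : M₂) * (Z₂ : M₂) = (Z₂ : M₂) * (Z₁ : M₂)
  · exact ⟨Z₁, h₁.ns, Or.inl rfl, Or.inl hc⟩
  · set W : M₂ := (Z₁ : M₂) * (Z₂ : M₂) - (Z₂ : M₂) * (Z₁ : M₂) with hW
    have hW0 : W ≠ 0 := sub_ne_zero.mpr hc
    have a1 : W * (Z₁ : M₂) = -((Z₁ : M₂) * W) := by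
      have e1 : (Z₂ : M₂) * (Z₁ : M₂) * (Z₁ : M₂) = -(Z₂ : M₂) := by
        rw [Matrix.mul_assoc, s₁, Matrix.mul_neg, Matrix.mul_one]
      have e2 : (Z₁ : M₂) * ((Z₁ : M₂) * (Z₂ : M₂)) = -(Z₂ : M₂) := by
        rw [← Matrix.mul_assoc, s₁, Matrix.neg_mul, Matrix.one_mul]
      rw [hW, Matrix.sub_mul, Matrix.mul_sub, e1, e2, Matrix.mul_assoc]
      abel
    have a2 : W * (Z₂ : M₂) = -((Z₂ : M₂) * W) := by
      have e1 : (Z₁ : M₂) * (Z₂ : M₂) * (Z₂ : M₂) = -(Z₁ : M₂) := by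
        rw [Matrix.mul_assoc, s₂, Matrix.mul_neg, Matrix.mul_one]
      have e2 : (Z₂ : M₂) * ((Z₂ : M₂) * (Z₁ : M₂)) = -(Z₁ : M₂) := by
        rw [← Matrix.mul_assoc, s₂, Matrix.neg_mul, Matrix.one_mul]
      rw [hW, Matrix.sub_mul, Matrix.mul_sub, e1, e2, Matrix.mul_assoc]
      abel
    have hdet : W.det ≠ 0 := by
      intro h
      obtain ⟨v, hv, hv'⟩ := Matrix.exists_mulVec_eq_zero_iff.mpr h
      have h3 : W *ᵥ ((Z₁ : M₂) *ᵥ v) = 0 := by
        rw [Matrix.mulVec_mulVec, a1, Matrix.neg_mulVec, ← Matrix.mulVec_mulVec, hv', Matrix.mulVec_zero, neg_zero]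
      have h4 : W * X (Z₁ : M₂) v = 0 := by
        ext i j
        have e1 := congrFun hv' i
        have e2 := congrFun h3 i
        simp only [Matrix.mulVec, dotProduct, Fin.sum_univ_two, Pi.zero_apply] at e1 e2
        fin_cases j
        · simp [X, Matrix.mul_apply, Fin.sum_univ_two]
          exact e1
        · simp [X, Matrix.mul_apply, Fin.sum_univ_two]
          exact e2
      have hu : IsUnit (X (Z₁ : M₂) v).det := by rw [det_X]; exact isUnit_iff_ne_zero.mpr (mat_Q_ne h₁ hv)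
      apply hW0
      calc W = W * X (Z₁ : M₂) v * (X (Z₁ : M₂) v)⁻¹ := by rw [Matrix.mul_assoc, Matrix.mul_nonsing_inv _ hu, Matrix.mul_one]
        _ = 0 := by rw [h4, Matrix.zero_mul]
    let w : GL₂ := Matrix.GeneralLinearGroup.mkOfDetNeZero W hdet
    refine ⟨w, ?_, Or.inr a1, Or.inr a2⟩
    intro hn
    have h3 : w ∈ Subgroup.center GL₂ := (center_gl w).mpr (not_not.mpr hn)
    have h4 : (Z₁ : M₂) * W = W * (Z₁ : M₂) := congrArg Units.val (Subgroup.mem_center_iff.mp h3 Z₁)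
    rw [a1] at h4
    have h5 : (2 : F) • ((Z₁ : M₂) * W) = 0 := by
      rw [two_smul]
      nth_rewrite 1 [h4]
      rw [neg_add_cancel]
    rcases smul_eq_zero.mp h5 with h6 | h6
    · exact h2 h6
    · have h7 := congrArg Matrix.det h6
      rw [Matrix.det_mul] at h7
      simp at h7
      rcases h7 with h7 | h7
      · exact gl_det_ne Z₁ h7
      · exact hdet h7

theorem conj_ell {Z g : GL₂} (hZ : Ell (Z : M₂)) : Ell ((g * Z * g⁻¹ : GL₂) : M₂) := by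
  intro c v hv h
  have h1 : ((g⁻¹ : GL₂) : M₂) *ᵥ v ≠ 0 := by
    intro h3
    apply hv
    have h4 : (g : M₂) *ᵥ (((g⁻¹ : GL₂) : M₂) *ᵥ v) = v := by
      rw [Matrix.mulVec_mulVec, ← Units.val_mul, mul_inv_cancel, Units.val_one, Matrix.one_mulVec]
    rw [← h4, h3, Matrix.mulVec_zero]
  apply hZ c _ h1
  have h3 : ((g⁻¹ : GL₂) : M₂) *ᵥ (((g * Z * g⁻¹ : GL₂) : M₂) *ᵥ v) = (Z : M₂) *ᵥ (((g⁻¹ : GL₂) : M₂) *ᵥ v) := by
    rw [Matrix.mulVec_mulVec, Matrix.mulVec_mulVec, ← Units.val_mul, ← Units.val_mul]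
    congr 2
    group
  rw [← h3, h, Matrix.mulVec_smul]

theorem conj_sq {Z g : GL₂} (hZ : (Z : M₂) * (Z : M₂) = -1) : ((g * Z * g⁻¹ : GL₂) : M₂) * ((g * Z * g⁻¹ : GL₂) : M₂) = -1 := by
  rw [← Units.val_mul]
  have : g * Z * g⁻¹ * (g * Z * g⁻¹) = g * (Z * Z) * g⁻¹ := by group
  rw [this, Units.val_mul, Units.val_mul, Units.val_mul, hZ, Matrix.mul_neg, Matrix.mul_one, Matrix.neg_mul, ← Units.val_mul,
    mul_inv_cancel, Units.val_one]

theorem conj_DZ {Z g W : GL₂} (h : W ∈ DZ (g * Z * g⁻¹)) : g⁻¹ * W * g ∈ DZ Z := by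
  have e1 : ((g⁻¹ * W * g : GL₂) : M₂) * (Z : M₂) = ((g⁻¹ : GL₂) : M₂) * ((W : M₂) * ((g * Z * g⁻¹ : GL₂) : M₂)) * (g : M₂) := by
    simp only [← Units.val_mul]
    congr 1
    group
  have e2 : (Z : M₂) * ((g⁻¹ * W * g : GL₂) : M₂) = ((g⁻¹ : GL₂) : M₂) * (((g * Z * g⁻¹ : GL₂) : M₂) * (W : M₂)) * (g : M₂) := by
    simp only [← Units.val_mul]
    congr 1
    group
  rw [mem_DZ, e1, e2]
  rcases h with h | h
  · left; rw [h]
  · right; rw [h, Matrix.mul_neg, Matrix.neg_mul]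

open scoped Pointwise in
theorem s2485 {q k : ℕ} [hqp : Fact q.Prime] (hk : q + 1 = 2 ^ k) (hq : 7 ≤ q)
    (H : Sylow 2 (PG (ZMod q))) (x : PG (ZMod q)) :
    (H : Subgroup (PG (ZMod q))) ⊓ MulAut.conj x • (H : Subgroup (PG (ZMod q))) ≠ ⊥ := by
  haveI : Fact (Nat.Prime 2) := ⟨Nat.prime_two⟩
  have hcard : Fintype.card (ZMod q) = q := ZMod.card q
  have hk3 : 3 ≤ k := by
    by_contra h
    have : k ≤ 2 := by omega
    have := Nat.pow_le_pow_right (show 0 < 2 by norm_num) this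
    omega
  obtain ⟨r, hr⟩ : ∃ r, q + 1 = 4 * (2 * r) := by
    obtain ⟨s, hs⟩ : ∃ s, k = s + 3 := ⟨k - 3, by omega⟩
    exact ⟨2 ^ s, by rw [hk, hs, pow_add]; ring⟩
  have h2 : (2 : ZMod q) ≠ 0 := by
    intro h
    have h1 : ((2 : ℕ) : ZMod q) = 0 := by exact_mod_cast h
    rw [ZMod.natCast_eq_zero_iff] at h1
    have := Nat.le_of_dvd (by norm_num) h1
    omega
  -- the base element
  let Z : GL (Fin 2) (ZMod q) := cmG 0 1
  have hZc : (Z : Matrix (Fin 2) (Fin 2) (ZMod q)) = cm 0 1 := by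
    show (cmG (0 : ZMod q) 1 : Matrix (Fin 2) (Fin 2) (ZMod q)) = cm 0 1
    rw [cmG_coe, Units.val_one]
  have hZt : (Z : Matrix (Fin 2) (Fin 2) (ZMod q)).trace = 0 := trace_cmG 0 1
  have hZe : Ell (Z : Matrix (Fin 2) (Fin 2) (ZMod q)) := by
    rw [ell_iff]
    intro c h
    rw [hZt, show (Z : Matrix (Fin 2) (Fin 2) (ZMod q)).det = 1 from det_cmG 0 1] at h
    have h3 : IsSquare (-1 : ZMod q) := ⟨c, by linear_combination -h⟩
    rw [ZMod.exists_sq_eq_neg_one_iff] at h3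
    omega
  have hZs : (Z : Matrix (Fin 2) (Fin 2) (ZMod q)) * (Z : Matrix (Fin 2) (Fin 2) (ZMod q)) = -1 := by
    rw [hZc, cm]
    ext i j
    fin_cases i <;> fin_cases j <;> simp [Matrix.mul_apply, Fin.sum_univ_two]
  -- it gives a Sylow subgroup
  have hDc := card_DZ_map h2 hZe hZt
  rw [hcard, hk, ← pow_succ'] at hDc
  have hfac : (Nat.card (PG (ZMod q))).factorization 2 = k + 1 := by
    rw [card_PG, hcard, hk]
    have e1 : q * (2 ^ k * (q - 1)) = 2 ^ (k + 1) * (q * ((q - 1) / 2)) := by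
      have : q - 1 = 2 * ((q - 1) / 2) := by omega
      conv_lhs => rw [this]
      rw [pow_succ]; ring
    have hodd : ¬ 2 ∣ q * ((q - 1) / 2) := by
      rw [Nat.prime_two.dvd_mul]
      omega
    rw [e1, Nat.factorization_mul (by positivity) (by intro h; rw [h] at hodd; exact hodd (dvd_zero 2)), Finsupp.add_apply,
      Nat.Prime.factorization_pow Nat.prime_two, Finsupp.single_eq_same, Nat.factorization_eq_zero_of_not_dvd hodd, add_zero]
  let P : Sylow 2 (PG (ZMod q)) := Sylow.ofCard ((DZ Z).map (mkG (ZMod q))) (by rw [hfac]; exact hDc)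
  have hP : (P : Subgroup (PG (ZMod q))) = (DZ Z).map (mkG (ZMod q)) := Sylow.coe_ofCard _ _
  obtain ⟨g, hg⟩ := MulAction.exists_smul_eq (PG (ZMod q)) P H
  obtain ⟨g', hg'⟩ : ∃ g', mkG (ZMod q) g' = g := QuotientGroup.mk'_surjective _ g
  obtain ⟨x', hx'⟩ : ∃ x', mkG (ZMod q) x' = x := QuotientGroup.mk'_surjective _ x
  have hH : (H : Subgroup (PG (ZMod q))) = MulAut.conj g • ((DZ Z).map (mkG (ZMod q))) := by
    rw [← hg, Sylow.coe_subgroup_smul, hP]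
  have hxH : MulAut.conj x • (H : Subgroup (PG (ZMod q))) = MulAut.conj (x * g) • ((DZ Z).map (mkG (ZMod q))) := by
    rw [hH, smul_smul, ← map_mul]
  have hmem : ∀ (y : GL (Fin 2) (ZMod q)) (W : GL (Fin 2) (ZMod q)), W ∈ DZ (y * Z * y⁻¹) →
      mkG (ZMod q) W ∈ MulAut.conj (mkG (ZMod q) y) • ((DZ Z).map (mkG (ZMod q))) := by
    intro y W hW
    rw [Subgroup.mem_pointwise_smul_iff_inv_smul_mem]
    refine ⟨y⁻¹ * W * y, conj_DZ hW, ?_⟩
    rw [← map_inv, MulAut.smul_def, MulAut.conj_apply, map_mul, map_mul, map_inv, inv_inv]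
  obtain ⟨W, hWn, hW1, hW2⟩ := exists_common h2 (Z₁ := g' * Z * g'⁻¹) (Z₂ := (x' * g') * Z * (x' * g')⁻¹) (conj_ell hZe) (conj_sq hZs) (conj_sq hZs)
  intro hbot
  have h3 : mkG (ZMod q) W ∈ (H : Subgroup (PG (ZMod q))) ⊓ MulAut.conj x • (H : Subgroup (PG (ZMod q))) := by
    rw [hxH, hH, ← hg', ← hx', ← map_mul]
    exact ⟨hmem g' W hW1, hmem (x' * g') W hW2⟩
  rw [hbot, Subgroup.mem_bot, mkG_eq_one] at h3
  exact h3 hWn

end Cfsg.Agent.H15.PGL
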