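import Mathlib
import Cfsg.Agent.H3_CharPerm2
import Cfsg.Agent.H3_CharComplete
import Cfsg.Agent.H3_CharInd

set_option autoImplicit false
open scoped ComplexConjugate

namespace Cfsg.Agent.H15.PV

open Cfsg Cfsg.Agent.H3.CharIrr Cfsg.Agent.H3.CharInd Cfsg.Agent.H3.CharComplete Cfsg.Agent.H3.CharPerm2

section abs

variable {G : Type*} [Group G] [Fintype G] {A : Type*} [CommGroup A] [Fintype A] {X : Type*} [Finite X] [MulAction G X] [MulAction A X] [SMulCommClass G A X]

variable (G A X) in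
/-- product action -/
@[reducible] def pact : MulAction (G × A) X where
  smul p x := p.1 • p.2 • x
  one_smul x := by change (1 : G) • (1 : A) • x = x; rw [one_smul, one_smul]
  mul_smul p r x := by
    change (p.1 * r.1) • (p.2 * r.2) • x = p.1 • p.2 • r.1 • r.2 • x
    rw [mul_smul, mul_smul, smul_comm r.1 p.2]

variable (G X) in
/-- number of points -/
noncomputable def Pf (g : G) (a : A) : ℂ := (Nat.card {x : X // g • a • x = x} : ℂ)

variable (G A X) in
theorem Pf_char : IsCharacter (G × A) (fun p => Pf G X p.1 p.2) := by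
  letI := pact G A X
  exact isChar_perm (G × A) X

/-- components -/
noncomputable def pa (X : Type*) [Finite X] [MulAction G X] [MulAction A X] (α : A →* ℂˣ) (g : G) : ℂ :=
  (Nat.card A : ℂ)⁻¹ * ∑ a : A, Pf G X g a * conj (α a : ℂ)

theorem card_ne : (Nat.card A : ℂ) ≠ 0 := by exact_mod_cast Nat.card_pos.ne'

theorem ci_pa (α : A →* ℂˣ) (ψ : G → ℂ) : classInner (pa X α) ψ = classInner (fun p : G × A => Pf G X p.1 p.2) (fun p => ψ p.1 * (α p.2 : ℂ)) := by
  rw [classInner, classInner, Fintype.sum_prod_type, Nat.card_prod, Nat.cast_mul, mul_inv, mul_assoc]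
  congr 1
  rw [Finset.mul_sum]
  refine Finset.sum_congr rfl (fun g _ => ?_)
  rw [pa, mul_assoc, Finset.sum_mul]
  congr 1
  refine Finset.sum_congr rfl (fun a _ => ?_)
  rw [map_mul]
  ring

theorem pa_class (α : A →* ℂˣ) : IsClassFunction G (pa X α : G → ℂ) := by
  intro g h
  rw [pa, pa]
  congr 1
  refine Finset.sum_congr rfl (fun a _ => ?_)
  congr 1
  rw [Pf, Pf]
  congr 1
  apply Nat.card_congr
  refine ⟨fun x => ⟨h⁻¹ • x.1, ?_⟩, fun x => ⟨h • x.1, ?_⟩, fun x => ?_, fun x => ?_⟩
  · have := x.2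
    rw [mul_smul, mul_smul] at this
    rw [← smul_comm h⁻¹ a]
    nth_rw 2 [← this]
    rw [inv_smul_smul]
  · have := x.2
    rw [mul_smul, mul_smul, ← smul_comm h a, inv_smul_smul, this]
  · apply Subtype.ext; exact smul_inv_smul _ _
  · apply Subtype.ext; exact inv_smul_smul _ _

theorem pa_nat (α : A →* ℂˣ) {ψ : G → ℂ} (hψ : IsCharacter G ψ) : ∃ n : ℕ, classInner (pa X α) ψ = n := by
  rw [ci_pa]
  apply ci_char_nat (Pf_char G A X)
  exact IsChar.mul (IsChar.comp hψ (MonoidHom.fst G A)) (IsChar.comp (IsIrr.isCharacter (isIrr_of_hom_units α)) (MonoidHom.snd G A))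

theorem pa_char (α : A →* ℂˣ) : IsCharacter G (pa X α) :=
  isCharacter_of_nat (pa_class α) (fun χ hχ => pa_nat α (IsIrr.isCharacter hχ))

omit [SMulCommClass G A X] in
theorem pa_one_deg (hfree : ∀ (a : A) (x : X), a • x = x → a = 1) (α : A →* ℂˣ) : pa X α (1 : G) = (Nat.card A : ℂ)⁻¹ * Nat.card X := by
  rw [pa, Finset.sum_eq_single 1]
  · rw [map_one, Units.val_one, map_one, mul_one, Pf]
    congr 2
    apply Nat.card_congr
    exact Equiv.subtypeUnivEquiv (fun x => by rw [one_smul, one_smul])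
  · intro a _ ha
    rw [Pf]
    have : IsEmpty {x : X // (1 : G) • a • x = x} := ⟨fun x => ha (hfree a x.1 (by have := x.2; rwa [one_smul] at this))⟩
    rw [Nat.card_of_isEmpty, Nat.cast_zero, zero_mul]
  · intro h; exact absurd (Finset.mem_univ _) h

theorem sum_chars [Fintype (A →* ℂˣ)] (a : A) (ha : a ≠ 1) : ∑ α : A →* ℂˣ, conj (α a : ℂ) = 0 := by
  obtain ⟨φ, hφ⟩ := CommGroup.exists_apply_ne_one_of_hasEnoughRootsOfUnity A ℂ ha
  have h1 : conj (φ a : ℂ) * ∑ α : A →* ℂˣ, conj (α a : ℂ) = ∑ α : A →* ℂˣ, conj (α a : ℂ) := by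
    rw [Finset.mul_sum]
    exact Fintype.sum_bijective (fun α => φ * α) (Group.mulLeft_bijective φ) _ _ (fun α => by
      rw [MonoidHom.mul_apply, Units.val_mul, map_mul])
  have h2 : (conj (φ a : ℂ) - 1) * ∑ α : A →* ℂˣ, conj (α a : ℂ) = 0 := by rw [sub_mul, h1, one_mul, sub_self]
  refine (mul_eq_zero.mp h2).resolve_left (fun h3 => hφ ?_)
  rw [sub_eq_zero] at h3
  have h4 := congrArg conj h3
  rw [Complex.conj_conj, map_one] at h4
  exact Units.ext h4

theorem card_chars : Nat.card (A →* ℂˣ) = Nat.card A := CommGroup.card_monoidHom_of_hasEnoughRootsOfUnity A ℂ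

omit [SMulCommClass G A X] in
theorem sum_pa [Fintype (A →* ℂˣ)] : ∑ α : A →* ℂˣ, pa X α = perm G X := by
  funext g
  rw [Finset.sum_apply]
  simp only [pa]
  rw [← Finset.mul_sum, Finset.sum_comm, Finset.sum_eq_single 1]
  · have h1 : ∑ α : A →* ℂˣ, Pf G X g (1 : A) * conj (α 1 : ℂ) = Nat.card A * Pf G X g (1 : A) := by
      rw [Finset.sum_congr rfl (fun α _ => show _ = Pf G X g (1 : A) by rw [map_one, Units.val_one, map_one, mul_one]), Finset.sum_const, Finset.card_univ, nsmul_eq_mul,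
        ← Nat.card_eq_fintype_card, card_chars]
    rw [h1, ← mul_assoc, inv_mul_cancel₀ card_ne, one_mul, Pf, perm]
    congr 1
    apply Nat.card_congr
    exact Equiv.subtypeEquivRight (fun x => by rw [one_smul, MulAction.mem_fixedBy])
  · intro a _ ha
    rw [← Finset.mul_sum, sum_chars a ha, mul_zero]
  · intro h; exact absurd (Finset.mem_univ _) h

theorem ci_pa_one [MulAction.IsPretransitive G X] [Nonempty X] : classInner (pa X (1 : A →* ℂˣ)) (fun _ : G => 1) = 1 := by
  rw [ci_pa]
  letI := pact G A X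
  haveI : MulAction.IsPretransitive (G × A) X := ⟨fun x y => by
    obtain ⟨g, hg⟩ := MulAction.exists_smul_eq G x y
    exact ⟨(g, 1), by change g • (1 : A) • x = y; rw [one_smul, hg]⟩⟩
  have h := ci_perm_one_of_pretransitive (G := G × A) X
  have e : (fun p : G × A => (1 : ℂ) * (((1 : A →* ℂˣ) p.2 : ℂˣ) : ℂ)) = fun _ => 1 := by
    funext p; simp
  rw [e]
  exact h

/-- corrected components -/
noncomputable def ph [DecidableEq (A →* ℂˣ)] (X : Type*) [Finite X] [MulAction G X] [MulAction A X] (α : A →* ℂˣ) : G → ℂ :=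
  if α = 1 then pa X α - (fun _ => 1) else pa X α

theorem ph_char [DecidableEq (A →* ℂˣ)] [MulAction.IsPretransitive G X] [Nonempty X] (α : A →* ℂˣ) : IsCharacter G (ph X α) := by
  classical
  rw [ph]
  split_ifs with h
  · subst h
    apply isCharacter_of_nat
    · intro g h
      rw [Pi.sub_apply, Pi.sub_apply, pa_class]
    · intro χ hχ
      rw [ci_sub_left]
      by_cases h1 : χ = fun _ => 1
      · subst h1
        rw [ci_pa_one, ci_irr_self hχ]
        exact ⟨0, by simp⟩
      · rw [ci_irr_ne isIrr_one hχ (Ne.symm h1), sub_zero]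
        exact pa_nat 1 (IsIrr.isCharacter hχ)
  · exact pa_char α

theorem sum_ph [DecidableEq (A →* ℂˣ)] [Fintype (A →* ℂˣ)] : ∑ α : A →* ℂˣ, (ph X α : G → ℂ) = perm G X - (fun _ => 1) := by
  have h1 : ∀ α : A →* ℂˣ, (ph X α : G → ℂ) = pa X α - (if α = 1 then (fun _ => (1 : ℂ)) else (0 : G → ℂ)) := by
    intro α
    rw [ph]
    split_ifs with h
    · rfl
    · rw [sub_zero]
  rw [Finset.sum_congr rfl (fun α _ => h1 α), Finset.sum_sub_distrib, sum_pa, Finset.sum_ite_eq', if_pos (Finset.mem_univ _)]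

theorem main [DecidableEq (A →* ℂˣ)] [Fintype (A →* ℂˣ)] [MulAction.IsPretransitive G X] [Nonempty X]
    (hfree : ∀ (a : A) (x : X), a • x = x → a = 1) (hX : Nat.card A < Nat.card X)
    (horb : Nat.card (Quotient (MulAction.orbitRel G (X × X))) = Nat.card A + 1) :
    (∀ α : A →* ℂˣ, IsIrrCharacter G (ph X α)) ∧ Function.Injective (fun α : A →* ℂˣ => (ph X α : G → ℂ)) := by
  classical
  have hnat : ∀ α β : A →* ℂˣ, ∃ n : ℕ, classInner (ph X α : G → ℂ) (ph X β) = n := fun α β => ci_char_nat (ph_char α) (ph_char β)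
  choose n hn using hnat
  have hne : ∀ α : A →* ℂˣ, (ph X α : G → ℂ) ≠ 0 := by
    intro α h
    have h1 := congrFun h 1
    rw [ph] at h1
    split_ifs at h1 with h2
    · rw [Pi.sub_apply, pa_one_deg hfree, Pi.zero_apply, sub_eq_zero, inv_mul_eq_one₀ card_ne] at h1
      have : Nat.card A = Nat.card X := by exact_mod_cast h1
      omega
    · rw [pa_one_deg hfree, Pi.zero_apply] at h1
      rcases mul_eq_zero.mp h1 with h3 | h3
      · exact (inv_ne_zero card_ne) h3
      · have : Nat.card X = 0 := by exact_mod_cast h3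
        omega
  have hpos : ∀ α, 1 ≤ n α α := by
    intro α
    by_contra h
    have h0 : n α α = 0 := by omega
    have h1 := hn α α
    rw [h0, Nat.cast_zero] at h1
    exact hne α (ci_self_eq_zero h1)
  have htot : ∑ α, ∑ β, n α β = Nat.card A := by
    have h1 : classInner (perm G X - (fun _ => 1)) (perm G X - (fun _ => 1)) = (Nat.card A : ℂ) := by
      rw [ci_sub_left, ci_sub_right, ci_sub_right, ci_perm_perm, ci_perm_one_of_pretransitive, horb, ← ci_conj_symm (perm G X) (fun _ => 1), ci_perm_one_of_pretransitive, map_one,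
        ci_irr_self isIrr_one]
      push_cast
      ring
    rw [← sum_ph (A := A), ci_sum_left] at h1
    simp only [ci_sum_right, hn] at h1
    exact_mod_cast h1
  have hcA : Fintype.card (A →* ℂˣ) = Nat.card A := by rw [← Nat.card_eq_fintype_card, card_chars]
  -- diagonal and off-diagonal
  have hsplit : ∑ α, ∑ β, n α β = ∑ α, n α α + ∑ α, ∑ β ∈ Finset.univ.erase α, n α β := by
    rw [← Finset.sum_add_distrib]
    refine Finset.sum_congr rfl (fun α _ => ?_)
    rw [← Finset.add_sum_erase _ _ (Finset.mem_univ α)]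
  have hd : ∑ α, n α α = Nat.card A + ∑ α, (n α α - 1) := by
    have : ∑ α : A →* ℂˣ, n α α = ∑ α : A →* ℂˣ, (1 + (n α α - 1)) := Finset.sum_congr rfl (fun α _ => by have := hpos α; omega)
    rw [this, Finset.sum_add_distrib, Finset.sum_const, Finset.card_univ, hcA, smul_eq_mul, mul_one]
  rw [hsplit, hd] at htot
  have z1 : ∑ α, (n α α - 1) = 0 := by omega
  have z2 : ∑ α, ∑ β ∈ Finset.univ.erase α, n α β = 0 := by omega
  rw [Finset.sum_eq_zero_iff] at z1 z2
  have e1 : ∀ α, n α α = 1 := fun α => by have := z1 α (Finset.mem_univ _); have := hpos α; omega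
  have e2 : ∀ α β, α ≠ β → n α β = 0 := fun α β h => by
    have := z2 α (Finset.mem_univ _)
    rw [Finset.sum_eq_zero_iff] at this
    exact this β (Finset.mem_erase.mpr ⟨Ne.symm h, Finset.mem_univ _⟩)
  constructor
  · intro α
    apply IsChar.isIrr_of_norm (ph_char α)
    rw [hn, e1, Nat.cast_one]
  · intro α β h
    by_contra hab
    have h1 := hn α β
    rw [e2 α β hab] at h1
    have h2 : (ph X α : G → ℂ) = ph X β := h
    rw [← h2, hn, e1] at h1
    norm_num at h1

end abs

end Cfsg.Agent.H15.PV
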