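import Mathlib
import Cfsg.Agent.H15_PV1
import Cfsg.Agent.H15_TR1

set_option autoImplicit false
open Module Matrix

namespace Cfsg.Agent.H15.PV

open Cfsg Cfsg.Agent.H3.CharIrr Cfsg.Agent.H3.CharInd Cfsg.Agent.H3.CharComplete Cfsg.Agent.H3.CharPerm2

variable {F : Type*} [Field F] {n : ℕ}

/-- nonzero vectors -/
abbrev NZ (F : Type*) [Field F] (n : ℕ) := {v : Fin n → F // v ≠ 0}

theorem sl_ne (g : Matrix.SpecialLinearGroup (Fin n) F) {v : Fin n → F} (hv : v ≠ 0) : (g : Matrix (Fin n) (Fin n) F) *ᵥ v ≠ 0 := by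
  intro h
  apply hv
  have : v = ((g⁻¹ : Matrix.SpecialLinearGroup (Fin n) F) : Matrix (Fin n) (Fin n) F) *ᵥ ((g : Matrix (Fin n) (Fin n) F) *ᵥ v) := by
    rw [mulVec_mulVec, ← Matrix.SpecialLinearGroup.coe_mul, inv_mul_cancel, Matrix.SpecialLinearGroup.coe_one, one_mulVec]
  rw [this, h, mulVec_zero]

instance : MulAction (Matrix.SpecialLinearGroup (Fin n) F) (NZ F n) where
  smul g v := ⟨(g : Matrix (Fin n) (Fin n) F) *ᵥ v.1, sl_ne g v.2⟩
  one_smul v := Subtype.ext (one_mulVec v.1)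
  mul_smul g h v := by
    apply Subtype.ext
    change ((g * h : Matrix.SpecialLinearGroup (Fin n) F) : Matrix (Fin n) (Fin n) F) *ᵥ v.1 = (g : Matrix (Fin n) (Fin n) F) *ᵥ ((h : Matrix (Fin n) (Fin n) F) *ᵥ v.1)
    rw [mulVec_mulVec, Matrix.SpecialLinearGroup.coe_mul]

theorem sl_smul (g : Matrix.SpecialLinearGroup (Fin n) F) (v : NZ F n) : (g • v).1 = (g : Matrix (Fin n) (Fin n) F) *ᵥ v.1 := rfl

instance : MulAction Fˣ (NZ F n) where
  smul a v := ⟨(a : F) • v.1, smul_ne_zero a.ne_zero v.2⟩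
  one_smul v := Subtype.ext (one_smul F v.1)
  mul_smul a b v := Subtype.ext (by change ((a * b : Fˣ) : F) • v.1 = (a : F) • (b : F) • v.1; rw [Units.val_mul, mul_smul])

theorem u_smul (a : Fˣ) (v : NZ F n) : (a • v).1 = (a : F) • v.1 := rfl

instance : SMulCommClass (Matrix.SpecialLinearGroup (Fin n) F) Fˣ (NZ F n) where
  smul_comm g a v := Subtype.ext (by
    rw [sl_smul, u_smul, u_smul, sl_smul, mulVec_smul])

theorem li_one {v : Fin n → F} (hv : v ≠ 0) : LinearIndependent F (fun _ : Fin 1 => v) :=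
  LinearIndependent.of_subsingleton (0 : Fin 1) hv

theorem trans1 (hn : 2 ≤ n) : MulAction.IsPretransitive (Matrix.SpecialLinearGroup (Fin n) F) (NZ F n) := by
  constructor
  intro v w
  obtain ⟨g, hg⟩ := Cfsg.Agent.H15.TR.exists_sl (n := n) (ι := Fin 1) (by rw [Fintype.card_fin]; omega) _ _ (li_one v.2) (li_one w.2)
  exact ⟨g, Subtype.ext (hg 0)⟩

theorem trans2 (hn : 3 ≤ n) (v w v' w' : NZ F n) (h : ∀ a : Fˣ, a • v ≠ w) (h' : ∀ a : Fˣ, a • v' ≠ w') :
    ∃ g : Matrix.SpecialLinearGroup (Fin n) F, g • v = v' ∧ g • w = w' := by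
  have hli : ∀ v w : NZ F n, (∀ a : Fˣ, a • v ≠ w) → LinearIndependent F ![v.1, w.1] := by
    intro v w h
    rw [LinearIndependent.pair_iff' v.2]
    intro a ha
    have ha0 : a ≠ 0 := by
      rintro rfl
      rw [zero_smul] at ha
      exact w.2 ha.symm
    exact h (Units.mk0 a ha0) (Subtype.ext ha)
  obtain ⟨g, hg⟩ := Cfsg.Agent.H15.TR.exists_sl (n := n) (ι := Fin 2) (by rw [Fintype.card_fin]; omega) _ _ (hli v w h) (hli v' w' h')
  exact ⟨g, Subtype.ext (hg 0), Subtype.ext (hg 1)⟩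

open Classical in
/-- invariant of a pair -/
noncomputable def inv (p : NZ F n × NZ F n) : Option Fˣ := if h : ∃ a : Fˣ, a • p.1 = p.2 then some h.choose else none

theorem free (a : Fˣ) (v : NZ F n) (h : a • v = v) : a = 1 := by
  have h1 : (a : F) • v.1 = v.1 := congrArg Subtype.val h
  apply Units.ext
  exact smul_left_injective F v.2 (by simpa using h1)

theorem inv_some {p : NZ F n × NZ F n} {a : Fˣ} (h : a • p.1 = p.2) : inv p = some a := by
  have hex : ∃ a : Fˣ, a • p.1 = p.2 := ⟨a, h⟩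
  rw [inv, dif_pos hex]
  congr 1
  have h1 := hex.choose_spec
  have h2 : (a⁻¹ * hex.choose) • p.1 = p.1 := by
    rw [mul_smul, h1, ← h, inv_smul_smul]
  exact (inv_mul_eq_one.mp (free _ _ h2)).symm

theorem inv_none {p : NZ F n × NZ F n} (h : ∀ a : Fˣ, a • p.1 ≠ p.2) : inv p = none := by
  rw [inv, dif_neg]
  push Not
  exact h

theorem orb_count [Finite F] (hn : 3 ≤ n) :
    Nat.card (Quotient (MulAction.orbitRel (Matrix.SpecialLinearGroup (Fin n) F) (NZ F n × NZ F n))) = Nat.card Fˣ + 1 := by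
  classical
  haveI := Fintype.ofFinite F
  rw [← Finite.card_option]
  apply Nat.card_congr
  have hwd : ∀ p r : NZ F n × NZ F n, (MulAction.orbitRel (Matrix.SpecialLinearGroup (Fin n) F) (NZ F n × NZ F n)) p r → inv p = inv r := by
    intro p r h
    rw [MulAction.orbitRel_apply, MulAction.mem_orbit_iff] at h
    obtain ⟨g, hg⟩ := h
    by_cases h1 : ∃ a : Fˣ, a • r.1 = r.2
    · obtain ⟨a, ha⟩ := h1
      rw [inv_some ha]
      apply inv_some
      rw [← hg, Prod.smul_fst, Prod.smul_snd, ← smul_comm g a, ha]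
    · push Not at h1
      rw [inv_none h1]
      apply inv_none
      intro a ha
      apply h1 a
      rw [← hg, Prod.smul_fst, Prod.smul_snd, ← smul_comm g a] at ha
      exact smul_left_cancel g ha
  refine Equiv.ofBijective (Quotient.lift inv hwd) ⟨?_, ?_⟩
  · intro P R h
    induction P using Quotient.inductionOn with | h p =>
    induction R using Quotient.inductionOn with | h r =>
    rw [Quotient.lift_mk, Quotient.lift_mk] at h
    apply Quotient.sound
    change MulAction.orbitRel _ _ p r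
    rw [MulAction.orbitRel_apply, MulAction.mem_orbit_iff]
    by_cases h1 : ∃ a : Fˣ, a • r.1 = r.2
    · obtain ⟨a, ha⟩ := h1
      by_cases h2 : ∃ b : Fˣ, b • p.1 = p.2
      · obtain ⟨b, hb⟩ := h2
        rw [inv_some ha, inv_some hb, Option.some_inj] at h
        subst h
        haveI := trans1 (F := F) (n := n) (by omega)
        obtain ⟨g, hg⟩ := MulAction.exists_smul_eq (Matrix.SpecialLinearGroup (Fin n) F) r.1 p.1
        refine ⟨g, Prod.ext hg ?_⟩
        rw [Prod.smul_snd, ← ha, smul_comm g b, hg, hb]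
      · push Not at h2
        rw [inv_some ha, inv_none h2] at h
        exact absurd h (by simp)
    · push Not at h1
      by_cases h2 : ∃ b : Fˣ, b • p.1 = p.2
      · obtain ⟨b, hb⟩ := h2
        rw [inv_none h1, inv_some hb] at h
        exact absurd h (by simp)
      · push Not at h2
        obtain ⟨g, hg1, hg2⟩ := trans2 hn r.1 r.2 p.1 p.2 h1 h2
        exact ⟨g, Prod.ext hg1 hg2⟩
  · intro o
    have h0 : (Pi.single (⟨0, by omega⟩ : Fin n) (1 : F) : Fin n → F) ≠ 0 := by
      intro h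
      have := congrFun h ⟨0, by omega⟩
      rw [Pi.single_eq_same] at this
      exact one_ne_zero this
    have h1 : (Pi.single (⟨1, by omega⟩ : Fin n) (1 : F) : Fin n → F) ≠ 0 := by
      intro h
      have := congrFun h ⟨1, by omega⟩
      rw [Pi.single_eq_same] at this
      exact one_ne_zero this
    cases o with
    | some a => exact ⟨Quotient.mk _ (⟨_, h0⟩, a • ⟨_, h0⟩), inv_some rfl⟩
    | none =>
      refine ⟨Quotient.mk _ (⟨_, h0⟩, ⟨_, h1⟩), inv_none ?_⟩
      intro a ha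
      have h2 := congrFun (congrArg Subtype.val ha) ⟨1, by omega⟩
      rw [u_smul, Pi.smul_apply] at h2
      have h3 : (a : F) • (Pi.single (⟨0, by omega⟩ : Fin n) (1 : F) : Fin n → F) ⟨1, by omega⟩ = (Pi.single (⟨1, by omega⟩ : Fin n) (1 : F) : Fin n → F) ⟨1, by omega⟩ := h2
      rw [Pi.single_eq_same, Pi.single_eq_of_ne (by simp [Fin.ext_iff]), smul_zero] at h3
      exact zero_ne_one h3

theorem card_NZ [Fintype F] : Nat.card (NZ F n) = Fintype.card F ^ n - 1 := by
  classical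
  rw [Nat.card_eq_fintype_card, Fintype.card_subtype_compl, Fintype.card_subtype_eq, Fintype.card_fun, Fintype.card_fin]

theorem sl_main [Fintype F] [DecidableEq F] (hn : 3 ≤ n) :
    ∃ χ : Fin (Fintype.card F - 1) → (Matrix.SpecialLinearGroup (Fin n) F → ℂ),
      (∀ i, Cfsg.IsIrrCharacter (Matrix.SpecialLinearGroup (Fin n) F) (χ i)) ∧ Function.Injective χ ∧
      ∀ g : Matrix.SpecialLinearGroup (Fin n) F,
        (Nat.card {v : Fin n → F // v ≠ 0 ∧ (g : Matrix (Fin n) (Fin n) F).mulVec v = v} : ℂ) = 1 + ∑ i, χ i g := by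
  classical
  haveI := trans1 (F := F) (n := n) (by omega)
  have hq : 1 < Fintype.card F := Fintype.one_lt_card
  have hX := card_NZ (F := F) (n := n)
  have hcu : Nat.card Fˣ = Fintype.card F - 1 := by rw [Nat.card_eq_fintype_card, Fintype.card_units]
  have hlt : Nat.card Fˣ < Nat.card (NZ F n) := by
    rw [hX, hcu]
    have : Fintype.card F ^ 1 < Fintype.card F ^ n := Nat.pow_lt_pow_right hq (by omega)
    rw [pow_one] at this
    omega
  haveI : Nonempty (NZ F n) := by
    apply (Nat.card_pos_iff.mp (lt_of_le_of_lt (Nat.zero_le _) hlt)).1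
  haveI : Finite (Fˣ →* ℂˣ) := by
    apply Nat.finite_of_card_ne_zero
    rw [card_chars, hcu]
    omega
  haveI : Fintype (Fˣ →* ℂˣ) := Fintype.ofFinite _
  obtain ⟨h1, h2⟩ := main (G := Matrix.SpecialLinearGroup (Fin n) F) (A := Fˣ) (X := NZ F n) free hlt (orb_count hn)
  have hc : Fintype.card (Fˣ →* ℂˣ) = Fintype.card F - 1 := by rw [← Nat.card_eq_fintype_card, card_chars, hcu]
  let e : Fin (Fintype.card F - 1) ≃ (Fˣ →* ℂˣ) := (Fintype.equivFinOfCardEq hc).symm
  refine ⟨fun i => ph (NZ F n) (e i), fun i => h1 (e i), fun i j h => e.injective (h2 h), fun g => ?_⟩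
  have h3 : ∑ i, ph (NZ F n) (e i) g = (∑ α : Fˣ →* ℂˣ, (ph (NZ F n) α : Matrix.SpecialLinearGroup (Fin n) F → ℂ)) g := by
    rw [Finset.sum_apply]
    exact Equiv.sum_comp e (fun α => ph (NZ F n) α g)
  rw [h3, sum_ph, Pi.sub_apply, perm, add_sub_cancel]
  congr 1
  apply Nat.card_congr
  exact ⟨fun v => ⟨⟨v.1, v.2.1⟩, Subtype.ext v.2.2⟩, fun v => ⟨v.1.1, v.1.2, congrArg Subtype.val v.2⟩, fun v => rfl, fun v => rfl⟩

end Cfsg.Agent.H15.PV
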