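import Mathlib

set_option autoImplicit false
set_option linter.all false
open Polynomial Module

namespace Cfsg.Agent.H15.RC

universe u
variable {F : Type u} [Field F]

/-- `F[X]/(g)` -/
abbrev Q (g : F[X]) : Type _ := F[X] ⧸ Submodule.span F[X] {g}

def piRes (R : Type*) [Ring R] {ι : Type*} (M : ι → Type*) [∀ j, AddCommGroup (M j)] [∀ j, Module R (M j)] (P : ι → Prop) :
    (∀ j, M j) →ₗ[R] (∀ j : {j // P j}, M j.1) where
  toFun := fun x j => x j.1
  map_add' := fun x y => rfl
  map_smul' := fun c x => rfl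

noncomputable def piRestrict {R : Type*} [Ring R] {ι : Type*} (M : ι → Type*) [∀ j, AddCommGroup (M j)] [∀ j, Module R (M j)] (P : ι → Prop)
    (h : ∀ j, ¬ P j → Subsingleton (M j)) : (∀ j, M j) ≃ₗ[R] (∀ j : {j // P j}, M j.1) :=
  LinearEquiv.ofBijective (piRes R M P) (by
    classical
    constructor
    · intro x y hxy
      funext j
      by_cases hj : P j
      · exact congrFun hxy ⟨j, hj⟩
      · haveI := h j hj; exact Subsingleton.elim _ _
    · intro y
      refine ⟨fun j => if hj : P j then y ⟨j, hj⟩ else 0, ?_⟩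
      funext j
      change (if hj : P j.1 then y ⟨j.1, hj⟩ else 0) = y j
      rw [dif_pos j.2])

/-- elementary divisor decomposition -/
structure Dec {V : Type*} [AddCommGroup V] [Module F V] (a : Module.End F V) (ι : Type*) [Fintype ι] (p : ι → F[X]) (e : ι → ℕ) : Prop where
  irr : ∀ j, Irreducible (p j)
  mon : ∀ j, (p j).Monic
  pos : ∀ j, 1 ≤ e j
  iso : ∃ φ : V ≃ₗ[F] (∀ j, Q (p j ^ e j)), ∀ v, φ (a v) = (X : F[X]) • φ v

theorem span_eq_of_assoc {f g : F[X]} (h : Associated f g) : Submodule.span F[X] {f} = Submodule.span F[X] {g} := by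
  obtain ⟨u, rfl⟩ := h
  exact (Ideal.span_singleton_mul_right_unit u.isUnit f).symm

theorem exists_dec {V : Type*} [AddCommGroup V] [Module F V] [Module.Finite F V] (a : Module.End F V) :
    ∃ (ι : Type u) (_ : Fintype ι) (p : ι → F[X]) (e : ι → ℕ), Dec a ι p e := by
  classical
  have hT : Module.IsTorsion F[X] (AEval' a) := Module.AEval.isTorsion_of_finiteDimensional F V a
  obtain ⟨ι, _, p, hp, e, ⟨φ⟩⟩ := Module.equiv_directSum_of_isTorsion (R := F[X]) (M := AEval' a) hT
  let φ2 := φ.trans (DirectSum.linearEquivFunOnFintype F[X] ι (fun i => F[X] ⧸ Submodule.span F[X] {p i ^ e i}))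
  let φ3 := φ2.trans (piRestrict (R := F[X]) (fun i => F[X] ⧸ Submodule.span F[X] {p i ^ e i}) (fun i => e i ≠ 0) (by
    intro j hj
    have : e j = 0 := by simpa using hj
    rw [Submodule.Quotient.subsingleton_iff, this, pow_zero]
    exact Ideal.span_singleton_one))
  let p' : {i // e i ≠ 0} → F[X] := fun i => p i.1 * C (p i.1).leadingCoeff⁻¹
  have hu : ∀ i : {i // e i ≠ 0}, IsUnit (C (p i.1).leadingCoeff⁻¹ : F[X]) := fun i =>
    Polynomial.isUnit_C.2 (isUnit_iff_ne_zero.2 (inv_ne_zero (leadingCoeff_ne_zero.2 (hp i.1).ne_zero)))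
  have hass : ∀ i : {i // e i ≠ 0}, Associated (p i.1) (p' i) := fun i => ⟨(hu i).unit, rfl⟩
  let φ4 := φ3.trans (LinearEquiv.piCongrRight (fun i : {i // e i ≠ 0} => Submodule.quotEquivOfEq _ _ (span_eq_of_assoc ((hass i).pow_pow (n := e i.1)))))
  refine ⟨{i // e i ≠ 0}, inferInstance, p', fun i => e i.1, ?_, ?_, ?_, ?_⟩
  · intro i; exact (hass i).irreducible (hp i.1)
  · intro i; exact Polynomial.monic_mul_leadingCoeff_inv (hp i.1).ne_zero
  · intro i; exact Nat.pos_of_ne_zero i.2
  · refine ⟨(AEval'.of a).trans (φ4.restrictScalars F), fun v => ?_⟩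
    change φ4 (AEval'.of a (a v)) = X • φ4 (AEval'.of a v)
    rw [← map_smul, AEval'.X_smul_of]


/-- multiplication by f as an F-linear map -/
noncomputable def mulF (f : F[X]) (M : Type*) [AddCommGroup M] [Module F M] [Module F[X] M] [IsScalarTower F F[X] M] : M →ₗ[F] M :=
  (LinearMap.lsmul F[X] M f).restrictScalars F

theorem mulF_apply (f : F[X]) {M : Type*} [AddCommGroup M] [Module F M] [Module F[X] M] [IsScalarTower F F[X] M] (x : M) : mulF f M x = f • x := rfl

theorem iso_aeval {V M : Type*} [AddCommGroup V] [Module F V] [AddCommGroup M] [Module F M] [Module F[X] M] [IsScalarTower F F[X] M]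
    {a : Module.End F V} (φ : V ≃ₗ[F] M) (h : ∀ v, φ (a v) = (X : F[X]) • φ v) (f : F[X]) (v : V) : φ (aeval a f v) = f • φ v := by
  induction f using Polynomial.induction_on' generalizing v with
  | add f g hf hg => rw [map_add, LinearMap.add_apply, map_add, hf, hg, add_smul]
  | monomial n c =>
    rw [aeval_monomial]
    have h1 : ∀ k : ℕ, ∀ v, φ ((a ^ k) v) = (X ^ k : F[X]) • φ v := by
      intro k
      induction k with
      | zero => intro v; simp
      | succ k ih => intro v; rw [pow_succ, Module.End.mul_apply, ih, h, smul_smul, pow_succ]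
    rw [Module.End.mul_apply, Module.algebraMap_end_apply, map_smul, h1, ← C_mul_X_pow_eq_monomial, mul_smul]
    exact (algebraMap_smul F[X] c _).symm

/-- rank of f(a) -/
noncomputable def rk {V : Type*} [AddCommGroup V] [Module F V] (a : Module.End F V) (f : F[X]) : ℕ := finrank F (LinearMap.range (aeval a f))

theorem rk_iso {V M : Type*} [AddCommGroup V] [Module F V] [AddCommGroup M] [Module F M] [Module F[X] M] [IsScalarTower F F[X] M]
    {a : Module.End F V} (φ : V ≃ₗ[F] M) (h : ∀ v, φ (a v) = (X : F[X]) • φ v) (f : F[X]) : rk a f = finrank F (LinearMap.range (mulF f M)) := by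
  unfold rk
  rw [← LinearEquiv.finrank_map_eq φ (LinearMap.range (aeval a f))]
  have : Submodule.map (φ : V →ₗ[F] M) (LinearMap.range (aeval a f)) = LinearMap.range (mulF f M) := by
    ext y
    constructor
    · rintro ⟨_, ⟨v, rfl⟩, rfl⟩
      exact ⟨φ v, (iso_aeval φ h f v).symm⟩
    · rintro ⟨x, rfl⟩
      refine ⟨aeval a f (φ.symm x), ⟨_, rfl⟩, ?_⟩
      change φ _ = _
      rw [iso_aeval φ h, LinearEquiv.apply_symm_apply]; rfl
  rw [this]

theorem rk_pi {ι : Type*} [Fintype ι] (M : ι → Type*) [∀ j, AddCommGroup (M j)] [∀ j, Module F (M j)] [∀ j, Module F[X] (M j)]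
    [∀ j, IsScalarTower F F[X] (M j)] [∀ j, Module.Finite F (M j)] (f : F[X]) :
    finrank F (LinearMap.range (mulF f (∀ j, M j))) = ∑ j, finrank F (LinearMap.range (mulF f (M j))) := by
  rw [← Module.finrank_pi_fintype F]
  apply LinearEquiv.finrank_eq
  let g : LinearMap.range (mulF f (∀ j, M j)) →ₗ[F] (∀ j, LinearMap.range (mulF f (M j))) :=
    { toFun := fun x j => ⟨x.1 j, by obtain ⟨y, hy⟩ := x.2; exact ⟨y j, by rw [← hy]; rfl⟩⟩
      map_add' := fun x y => rfl
      map_smul' := fun c x => rfl }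
  apply LinearEquiv.ofBijective g
  constructor
  · intro x y hxy
    apply Subtype.ext
    funext j
    exact congrArg Subtype.val (congrFun hxy j)
  · intro y
    choose z hz using fun j => (y j).2
    refine ⟨⟨fun j => (y j).1, ⟨z, funext hz⟩⟩, rfl⟩

theorem rk_Q (f g g' : F[X]) (h : ∀ x, g ∣ f * x ↔ g' ∣ x) : finrank F (LinearMap.range (mulF f (Q g))) = g'.natDegree := by
  let ψ : F[X] →ₗ[F[X]] Q g := (LinearMap.lsmul F[X] (Q g) f).comp (Submodule.mkQ _)
  have hker : LinearMap.ker ψ = Submodule.span F[X] {g'} := by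
    ext x
    rw [LinearMap.mem_ker]
    change f • (Submodule.Quotient.mk x : Q g) = 0 ↔ _
    rw [← Submodule.Quotient.mk_smul, Submodule.Quotient.mk_eq_zero]
    change f * x ∈ Ideal.span {g} ↔ x ∈ Ideal.span {g'}
    rw [Ideal.mem_span_singleton, Ideal.mem_span_singleton, h]
  have hran : LinearMap.range (mulF f (Q g)) = (LinearMap.range ψ).restrictScalars F := by
    ext y
    constructor
    · rintro ⟨x, rfl⟩
      obtain ⟨x, rfl⟩ := Submodule.mkQ_surjective _ x
      exact ⟨x, rfl⟩
    · rintro ⟨x, rfl⟩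
      exact ⟨_, rfl⟩
  rw [hran]
  have e1 := ψ.quotKerEquivRange.restrictScalars F
  have e2 : finrank F ((LinearMap.range ψ).restrictScalars F) = finrank F (F[X] ⧸ LinearMap.ker ψ) := (LinearEquiv.finrank_eq e1).symm
  rw [e2, hker]
  exact finrank_quotient_span_eq_natDegree


theorem finite_Q {g : F[X]} (hg : g.Monic) : Module.Finite F (Q g) := hg.finite_quotient

theorem pow_dvd_iff {P : F[X]} (hP : Irreducible P) (e i : ℕ) (x : F[X]) : P ^ e ∣ P ^ i * x ↔ P ^ (e - i) ∣ x := by
  have h0 : P ^ i ≠ 0 := pow_ne_zero _ hP.ne_zero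
  rcases le_total i e with h | h
  · obtain ⟨k, rfl⟩ := Nat.exists_eq_add_of_le h
    rw [Nat.add_sub_cancel_left, pow_add]
    exact mul_dvd_mul_iff_left h0
  · rw [Nat.sub_eq_zero_of_le h, pow_zero]
    constructor
    · intro _; exact one_dvd _
    · intro _; exact (pow_dvd_pow P h).mul_right x

section
variable {V : Type*} [AddCommGroup V] [Module F V] [Module.Finite F V] {a : Module.End F V} {ι : Type*} [Fintype ι] {p : ι → F[X]} {e : ι → ℕ}

open Classical in
theorem Dec.rk_pow (D : Dec a ι p e) {P : F[X]} (hP : Irreducible P) (hPm : P.Monic) (i : ℕ) :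
    rk a (P ^ i) = ∑ j, if p j = P then (e j - i) * P.natDegree else e j * (p j).natDegree := by
  obtain ⟨φ, hφ⟩ := D.iso
  haveI : ∀ j, Module.Finite F (Q (p j ^ e j)) := fun j => finite_Q ((D.mon j).pow _)
  rw [rk_iso φ hφ, rk_pi]
  refine Finset.sum_congr rfl (fun j _ => ?_)
  split_ifs with h
  · rw [rk_Q _ _ (P ^ (e j - i)), natDegree_pow]
    intro x
    rw [h]; exact pow_dvd_iff hP _ _ _
  · rw [rk_Q _ _ (p j ^ e j), natDegree_pow]
    intro x
    have hc : IsCoprime (p j ^ e j) (P ^ i) := by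
      apply IsCoprime.pow
      rcases EuclideanDomain.dvd_or_coprime (p j) P (D.irr j) with h1 | h1
      · exfalso
        apply h
        exact eq_of_monic_of_associated (D.mon j) hPm ((D.irr j).associated_of_dvd hP h1)
      · exact h1
    exact ⟨fun h1 => hc.dvd_of_dvd_mul_left h1, fun h1 => h1.mul_left _⟩

theorem Dec.finrank_eq (D : Dec a ι p e) : finrank F V = ∑ j, e j * (p j).natDegree := by
  obtain ⟨φ, hφ⟩ := D.iso
  haveI : ∀ j, Module.Finite F (Q (p j ^ e j)) := fun j => finite_Q ((D.mon j).pow _)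
  rw [φ.finrank_eq, Module.finrank_pi_fintype]
  refine Finset.sum_congr rfl (fun j _ => ?_)
  rw [← natDegree_pow]
  exact finrank_quotient_span_eq_natDegree

open Classical in
theorem Dec.rk_step (D : Dec a ι p e) {P : F[X]} (hP : Irreducible P) (hPm : P.Monic) (i : ℕ) :
    rk a (P ^ i) = rk a (P ^ (i+1)) + P.natDegree * (Finset.univ.filter (fun j => p j = P ∧ i < e j)).card := by
  rw [D.rk_pow hP hPm, D.rk_pow hP hPm, Finset.card_filter, Finset.mul_sum, ← Finset.sum_add_distrib]
  refine Finset.sum_congr rfl (fun j _ => ?_)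
  by_cases h : p j = P
  · rw [if_pos h, if_pos h]
    by_cases h2 : i < e j
    · rw [if_pos ⟨h, h2⟩]
      have : e j - i = e j - (i+1) + 1 := by omega
      rw [this]; ring
    · rw [if_neg (fun h3 => h2 h3.2)]
      have e1 : e j - i = 0 := by omega
      have e2 : e j - (i+1) = 0 := by omega
      rw [e1, e2]
      simp
  · rw [if_neg h, if_neg h, if_neg (fun h3 => h h3.1)]
    simp

open Classical in
theorem Dec.cnt_step (D : Dec a ι p e) (P : F[X]) (i : ℕ) :
    (Finset.univ.filter (fun j => p j = P ∧ i < e j)).card = (Finset.univ.filter (fun j => p j = P ∧ i + 1 < e j)).card + (Finset.univ.filter (fun j => p j = P ∧ e j = i + 1)).card := by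
  rw [← Finset.card_union_of_disjoint]
  · congr 1
    ext j
    simp only [Finset.mem_filter, Finset.mem_union, Finset.mem_univ, true_and]
    constructor
    · rintro ⟨h1, h2⟩
      rcases Nat.lt_or_ge (i+1) (e j) with h3 | h3
      · exact Or.inl ⟨h1, h3⟩
      · exact Or.inr ⟨h1, by omega⟩
    · rintro (⟨h1, h2⟩ | ⟨h1, h2⟩)
      · exact ⟨h1, by omega⟩
      · exact ⟨h1, by omega⟩
  · rw [Finset.disjoint_filter]
    rintro j - ⟨h1, h2⟩ ⟨h3, h4⟩
    omega

end

section
variable {V : Type*} [AddCommGroup V] [Module F V] [Module.Finite F V] {a : Module.End F V} {ι : Type*} [Fintype ι] {p : ι → F[X]} {e : ι → ℕ}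
variable {W : Type*} [AddCommGroup W] [Module F W] [Module.Finite F W] {b : Module.End F W} {κ : Type*} [Fintype κ] {r : κ → F[X]} {s : κ → ℕ}

open Classical in
theorem cnt_eq_of_rk (D : Dec a ι p e) (D' : Dec b κ r s) (h : ∀ f, rk a f = rk b f) (P : F[X]) (i : ℕ) :
    (Finset.univ.filter (fun j => p j = P ∧ e j = i)).card = (Finset.univ.filter (fun j => r j = P ∧ s j = i)).card := by
  by_cases hP : Irreducible P ∧ P.Monic
  · obtain ⟨hP, hPm⟩ := hP
    have hd : 0 < P.natDegree := hP.natDegree_pos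
    have hN : ∀ i, (Finset.univ.filter (fun j => p j = P ∧ i < e j)).card = (Finset.univ.filter (fun j => r j = P ∧ i < s j)).card := by
      intro i
      have h1 := D.rk_step hP hPm i
      have h2 := D'.rk_step hP hPm i
      rw [h, h, h2] at h1
      exact (Nat.eq_of_mul_eq_mul_left hd (Nat.add_left_cancel h1)).symm
    rcases i with _ | i
    · have e1 : (Finset.univ.filter (fun j => p j = P ∧ e j = 0)) = ∅ := by
        rw [Finset.filter_eq_empty_iff]; rintro j - ⟨_, h2⟩; have := D.pos j; omega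
      have e2 : (Finset.univ.filter (fun j => r j = P ∧ s j = 0)) = ∅ := by
        rw [Finset.filter_eq_empty_iff]; rintro j - ⟨_, h2⟩; have := D'.pos j; omega
      rw [e1, e2]; rfl
    · have h1 := D.cnt_step P i
      have h2 := D'.cnt_step P i
      rw [hN, hN, h2] at h1
      omega
  · have e1 : (Finset.univ.filter (fun j => p j = P ∧ e j = i)) = ∅ := by
      rw [Finset.filter_eq_empty_iff]; rintro j - ⟨h2, _⟩; exact hP (h2 ▸ ⟨D.irr j, D.mon j⟩)
    have e2 : (Finset.univ.filter (fun j => r j = P ∧ s j = i)) = ∅ := by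
      rw [Finset.filter_eq_empty_iff]; rintro j - ⟨h2, _⟩; exact hP (h2 ▸ ⟨D'.irr j, D'.mon j⟩)
    rw [e1, e2]; rfl

/-- matching of finite families -/
theorem exists_match {ι κ T : Type*} [Fintype ι] [Fintype κ] (f : ι → T) (g : κ → T)
    (h : ∀ t, Nat.card {j // f j = t} = Nat.card {j // g j = t}) : ∃ σ : ι ≃ κ, ∀ j, g (σ j) = f j := by
  classical
  have h1 : ∀ t, Nonempty ({j // f j = t} ≃ {j // g j = t}) := fun t => Finite.card_eq.1 (h t)
  have E := fun t => (h1 t).some
  let σ : ι ≃ κ := (Equiv.sigmaFiberEquiv f).symm.trans ((Equiv.sigmaCongrRight (fun t => E t)).trans (Equiv.sigmaFiberEquiv g))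
  refine ⟨σ, fun j => ?_⟩
  exact (E (f j) ⟨j, rfl⟩).2

theorem Dec.transfer (D : Dec a ι p e) (D' : Dec b κ r s) (σ : ι ≃ κ) (hσ : ∀ j, r (σ j) = p j ∧ s (σ j) = e j) :
    ∃ φ : V ≃ₗ[F] W, ∀ v, φ (a v) = b (φ v) := by
  obtain ⟨φ, hφ⟩ := D.iso
  obtain ⟨ψ, hψ⟩ := D'.iso
  let θ : (∀ j, Q (p j ^ e j)) ≃ₗ[F[X]] (∀ j, Q (r (σ j) ^ s (σ j))) :=
    LinearEquiv.piCongrRight (fun j => Submodule.quotEquivOfEq _ _ (by rw [(hσ j).1, (hσ j).2]))
  let η : (∀ j, Q (r j ^ s j)) ≃ₗ[F[X]] (∀ j, Q (r (σ j) ^ s (σ j))) := LinearEquiv.piCongrLeft' F[X] (fun j => Q (r j ^ s j)) σ.symm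
  let χ := θ.trans η.symm
  refine ⟨φ.trans ((χ.restrictScalars F).trans ψ.symm), fun v => ?_⟩
  change ψ.symm (χ (φ (a v))) = b (ψ.symm (χ (φ v)))
  apply ψ.injective
  rw [hψ, LinearEquiv.apply_symm_apply, LinearEquiv.apply_symm_apply, hφ, map_smul]

end

/-- similarity criterion -/
theorem similar_of_rk {V : Type*} [AddCommGroup V] [Module F V] [Module.Finite F V] {a : Module.End F V}
    {W : Type*} [AddCommGroup W] [Module F W] [Module.Finite F W] {b : Module.End F W} (h : ∀ f, rk a f = rk b f) :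
    ∃ φ : V ≃ₗ[F] W, ∀ v, φ (a v) = b (φ v) := by
  classical
  obtain ⟨ι, _, p, e, D⟩ := exists_dec a
  obtain ⟨κ, _, r, s, D'⟩ := exists_dec b
  obtain ⟨σ, hσ⟩ := exists_match (fun j => (p j, e j)) (fun j => (r j, s j)) (by
    rintro ⟨P, i⟩
    have := cnt_eq_of_rk D D' h P i
    rw [Nat.card_eq_fintype_card, Nat.card_eq_fintype_card, Fintype.card_subtype, Fintype.card_subtype]
    simp only [Prod.mk.injEq]
    exact this)
  exact D.transfer D' σ (fun j => by simpa using hσ j)

theorem rk_of_similar {V : Type*} [AddCommGroup V] [Module F V] {a : Module.End F V}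
    {W : Type*} [AddCommGroup W] [Module F W] {b : Module.End F W} (φ : V ≃ₗ[F] W) (h : ∀ v, φ (a v) = b (φ v)) (f : F[X]) : rk a f = rk b f := by
  unfold rk
  rw [← LinearEquiv.finrank_map_eq φ (LinearMap.range (aeval a f))]
  have h1 : ∀ v, φ (aeval a f v) = aeval b f (φ v) := by
    intro v
    induction f using Polynomial.induction_on' generalizing v with
    | add f g hf hg => simp [map_add, hf, hg]
    | monomial n c =>
      have h1 : ∀ k : ℕ, ∀ v, φ ((a ^ k) v) = (b ^ k) (φ v) := by
        intro k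
        induction k with
        | zero => intro v; simp
        | succ k ih => intro v; rw [pow_succ, Module.End.mul_apply, ih, h, pow_succ, Module.End.mul_apply]
      rw [aeval_monomial, aeval_monomial, Module.End.mul_apply, Module.algebraMap_end_apply, map_smul, h1, Module.End.mul_apply, Module.algebraMap_end_apply]
  have : Submodule.map (φ : V →ₗ[F] W) (LinearMap.range (aeval a f)) = LinearMap.range (aeval b f) := by
    ext y
    constructor
    · rintro ⟨_, ⟨v, rfl⟩, rfl⟩
      exact ⟨φ v, (h1 v).symm⟩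
    · rintro ⟨x, rfl⟩
      refine ⟨aeval a f (φ.symm x), ⟨_, rfl⟩, ?_⟩
      change φ _ = _
      rw [h1, LinearEquiv.apply_symm_apply]
  rw [this]


section mat
variable {n : Type*} [Fintype n] [DecidableEq n]

theorem aeval_toLin' (A : Matrix n n F) (f : F[X]) : aeval (Matrix.toLin' A : Module.End F (n → F)) f = Matrix.toLin' (aeval A f) := by
  exact (Polynomial.aeval_algHom_apply (Matrix.toLinAlgEquiv' : Matrix n n F ≃ₐ[F] _) A f)

theorem rk_toLin' (A : Matrix n n F) (f : F[X]) : rk (Matrix.toLin' A : Module.End F (n → F)) f = (aeval A f).rank := by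
  unfold rk
  rw [aeval_toLin']; rfl

/-- from an intertwining linear equivalence to matrices -/
theorem isConj_of_equiv {A B : Matrix n n F} (φ : (n → F) ≃ₗ[F] (n → F)) (h : ∀ v, φ (Matrix.toLin' A v) = Matrix.toLin' B (φ v)) :
    ∃ c : GL n F, (c : Matrix n n F) * A = B * c := by
  let c : Matrix n n F := LinearMap.toMatrix' (φ : (n → F) →ₗ[F] (n → F))
  let d : Matrix n n F := LinearMap.toMatrix' (φ.symm : (n → F) →ₗ[F] (n → F))
  have h1 : c * d = 1 := by
    change LinearMap.toMatrix' _ * LinearMap.toMatrix' _ = 1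
    rw [← LinearMap.toMatrix'_comp, ← LinearMap.toMatrix'_id]
    congr 1
    ext1 x; simp
  have h2 : d * c = 1 := by
    change LinearMap.toMatrix' _ * LinearMap.toMatrix' _ = 1
    rw [← LinearMap.toMatrix'_comp, ← LinearMap.toMatrix'_id]
    congr 1
    ext1 x; simp
  refine ⟨⟨c, d, h1, h2⟩, ?_⟩
  change c * A = B * c
  apply Matrix.toLin'.injective
  rw [Matrix.toLin'_mul, Matrix.toLin'_mul]
  apply LinearMap.ext
  intro v
  rw [LinearMap.comp_apply, LinearMap.comp_apply, Matrix.toLin'_toMatrix']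
  exact h v

theorem isConj_of_rank {A B : Matrix n n F} (h : ∀ f : F[X], (aeval A f).rank = (aeval B f).rank) : IsConj A B := by
  obtain ⟨φ, hφ⟩ := similar_of_rk (a := (Matrix.toLin' A : Module.End F (n → F))) (b := (Matrix.toLin' B : Module.End F (n → F))) (fun f => by
    rw [rk_toLin', rk_toLin', h])
  obtain ⟨c, hc⟩ := isConj_of_equiv φ hφ
  exact ⟨c, hc⟩

theorem aeval_transpose (A : Matrix n n F) (f : F[X]) : aeval A.transpose f = (aeval A f).transpose := by
  induction f using Polynomial.induction_on' with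
  | add f g hf hg => rw [map_add, map_add, hf, hg, Matrix.transpose_add]
  | monomial k c =>
    rw [aeval_monomial, aeval_monomial, Matrix.transpose_mul, Matrix.transpose_pow, Matrix.algebraMap_eq_diagonal, Matrix.diagonal_transpose]
    rw [← Matrix.algebraMap_eq_diagonal]
    exact Algebra.commutes _ _

theorem isConj_transpose (A : Matrix n n F) : IsConj A A.transpose :=
  isConj_of_rank (fun f => by rw [aeval_transpose, Matrix.rank_transpose])

end mat

end Cfsg.Agent.H15.RC
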