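import Mathlib
import Cfsg.Agent.H15_RC1

set_option autoImplicit false
set_option linter.all false
open Polynomial Module

namespace Cfsg.Agent.H15.RC

universe u
variable {F : Type u} [Field F]

theorem Dec.reindex {V : Type*} [AddCommGroup V] [Module F V] {a : Module.End F V} {ι : Type*} [Fintype ι] {p : ι → F[X]} {e : ι → ℕ}
    (D : Dec a ι p e) {κ : Type*} [Fintype κ] (σ : κ ≃ ι) : Dec a κ (fun j => p (σ j)) (fun j => e (σ j)) := by
  obtain ⟨φ, hφ⟩ := D.iso
  refine ⟨fun j => D.irr _, fun j => D.mon _, fun j => D.pos _, ?_⟩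
  let η : (∀ j, Q (p j ^ e j)) ≃ₗ[F[X]] (∀ j, Q (p (σ j) ^ e (σ j))) := LinearEquiv.piCongrLeft' F[X] (fun j => Q (p j ^ e j)) σ.symm
  refine ⟨φ.trans (η.restrictScalars F), fun v => ?_⟩
  change η (φ (a v)) = (X : F[X]) • η (φ v)
  rw [hφ, map_smul]

/-- the type (multiset of elementary divisors) -/
def HasType {V : Type*} [AddCommGroup V] [Module F V] (a : Module.End F V) (T : Multiset (F[X] × ℕ)) : Prop :=
  ∃ (k : ℕ) (p : Fin k → F[X]) (e : Fin k → ℕ), Dec a (Fin k) p e ∧ T = Finset.univ.val.map (fun j => (p j, e j))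

theorem exists_type {V : Type*} [AddCommGroup V] [Module F V] [Module.Finite F V] (a : Module.End F V) : ∃ T, HasType a T := by
  obtain ⟨ι, _, p, e, D⟩ := exists_dec a
  exact ⟨_, Fintype.card ι, _, _, D.reindex (Fintype.equivFin ι).symm, rfl⟩

theorem count_univ_map {ι S : Type*} [Fintype ι] [DecidableEq S] (f : ι → S) (t : S) :
    Multiset.count t (Finset.univ.val.map f) = Nat.card {j // f j = t} := by
  rw [Multiset.count_map, Nat.card_eq_fintype_card, Fintype.card_subtype]
  simp only [eq_comm]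
  rfl

theorem similar_of_type {V : Type*} [AddCommGroup V] [Module F V] [Module.Finite F V] {a : Module.End F V}
    {W : Type*} [AddCommGroup W] [Module F W] [Module.Finite F W] {b : Module.End F W} {T : Multiset (F[X] × ℕ)} (h : HasType a T) (h' : HasType b T) :
    ∃ φ : V ≃ₗ[F] W, ∀ v, φ (a v) = b (φ v) := by
  classical
  obtain ⟨k, p, e, D, hT⟩ := h
  obtain ⟨k', p', e', D', hT'⟩ := h'
  obtain ⟨σ, hσ⟩ := exists_match (fun j => (p j, e j)) (fun j => (p' j, e' j)) (fun t => by
    rw [← count_univ_map, ← count_univ_map, ← hT, ← hT'])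
  exact D.transfer D' σ (fun j => by simpa using hσ j)

theorem type_unique_rk {V : Type*} [AddCommGroup V] [Module F V] [Module.Finite F V] {a : Module.End F V}
    {W : Type*} [AddCommGroup W] [Module F W] [Module.Finite F W] {b : Module.End F W} {T T' : Multiset (F[X] × ℕ)} (h : HasType a T) (h' : HasType b T')
    (hr : ∀ f, rk a f = rk b f) : T = T' := by
  classical
  obtain ⟨k, p, e, D, hT⟩ := h
  obtain ⟨k', p', e', D', hT'⟩ := h'
  ext ⟨P, i⟩
  rw [hT, hT', count_univ_map, count_univ_map, Nat.card_eq_fintype_card, Nat.card_eq_fintype_card, Fintype.card_subtype, Fintype.card_subtype]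
  simp only [Prod.mk.injEq]
  exact cnt_eq_of_rk D D' hr P i

theorem type_unique {V : Type*} [AddCommGroup V] [Module F V] [Module.Finite F V] {a : Module.End F V}
    {W : Type*} [AddCommGroup W] [Module F W] [Module.Finite F W] {b : Module.End F W} {T T' : Multiset (F[X] × ℕ)} (h : HasType a T) (h' : HasType b T')
    (φ : V ≃ₗ[F] W) (hφ : ∀ v, φ (a v) = b (φ v)) : T = T' := type_unique_rk h h' (rk_of_similar φ hφ)

/-- valid types -/
def Valid (T : Multiset (F[X] × ℕ)) : Prop := ∀ t ∈ T, Irreducible t.1 ∧ t.1.Monic ∧ 1 ≤ t.2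

def size (T : Multiset (F[X] × ℕ)) : ℕ := (T.map (fun t => t.2 * t.1.natDegree)).sum

theorem HasType.valid {V : Type*} [AddCommGroup V] [Module F V] {a : Module.End F V} {T : Multiset (F[X] × ℕ)} (h : HasType a T) : Valid T := by
  obtain ⟨k, p, e, D, rfl⟩ := h
  intro t ht
  rw [Multiset.mem_map] at ht
  obtain ⟨j, -, rfl⟩ := ht
  exact ⟨D.irr j, D.mon j, D.pos j⟩

theorem HasType.size_eq {V : Type*} [AddCommGroup V] [Module F V] [Module.Finite F V] {a : Module.End F V} {T : Multiset (F[X] × ℕ)} (h : HasType a T) : size T = finrank F V := by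
  obtain ⟨k, p, e, D, rfl⟩ := h
  rw [D.finrank_eq]
  unfold size
  rw [Multiset.map_map]
  rfl

/-- f(a) = 0 iff all elementary divisors divide f -/
theorem HasType.aeval_eq_zero {V : Type*} [AddCommGroup V] [Module F V] {a : Module.End F V} {T : Multiset (F[X] × ℕ)} (h : HasType a T) (f : F[X]) :
    aeval a f = 0 ↔ ∀ t ∈ T, t.1 ^ t.2 ∣ f := by
  classical
  obtain ⟨k, p, e, D, rfl⟩ := h
  obtain ⟨φ, hφ⟩ := D.iso
  constructor
  · intro h0 t ht
    rw [Multiset.mem_map] at ht
    obtain ⟨j, -, rfl⟩ := ht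
    have h1 := iso_aeval φ hφ f (φ.symm (Pi.single j (Submodule.Quotient.mk 1)))
    rw [h0, LinearMap.zero_apply, map_zero, LinearEquiv.apply_symm_apply] at h1
    have h2 := congrFun h1 j
    rw [Pi.smul_apply, Pi.single_eq_same, ← Submodule.Quotient.mk_smul, Pi.zero_apply, eq_comm, Submodule.Quotient.mk_eq_zero] at h2
    have h3 : f * 1 ∈ Ideal.span {p j ^ e j} := h2
    rw [Ideal.mem_span_singleton, mul_one] at h3
    exact h3
  · intro hd
    apply LinearMap.ext
    intro v
    apply φ.injective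
    rw [iso_aeval φ hφ, LinearMap.zero_apply, map_zero]
    funext j
    obtain ⟨x, hx⟩ := Submodule.mkQ_surjective _ (φ v j)
    rw [Pi.smul_apply, ← hx, Pi.zero_apply]
    change f • (Submodule.Quotient.mk x : Q (p j ^ e j)) = 0
    rw [← Submodule.Quotient.mk_smul, Submodule.Quotient.mk_eq_zero]
    change f * x ∈ Ideal.span {p j ^ e j}
    rw [Ideal.mem_span_singleton]
    exact (hd _ (Multiset.mem_map_of_mem _ (Finset.mem_univ j))).mul_right x

/-- realization -/
theorem exists_of_fam {ι : Type*} [Fintype ι] (p : ι → F[X]) (e : ι → ℕ) (h1 : ∀ j, Irreducible (p j)) (h2 : ∀ j, (p j).Monic) (h3 : ∀ j, 1 ≤ e j)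
    (n : ℕ) (hn : ∑ j, e j * (p j).natDegree = n) : ∃ a : Module.End F (Fin n → F), Dec a ι p e := by
  haveI : ∀ j, Module.Finite F (Q (p j ^ e j)) := fun j => finite_Q ((h2 j).pow _)
  have hfr : finrank F (∀ j, Q (p j ^ e j)) = n := by
    rw [Module.finrank_pi_fintype, ← hn]
    refine Finset.sum_congr rfl (fun j _ => ?_)
    rw [← natDegree_pow]
    exact finrank_quotient_span_eq_natDegree
  obtain ⟨φ⟩ : Nonempty ((∀ j, Q (p j ^ e j)) ≃ₗ[F] (Fin n → F)) := ⟨(Module.finBasisOfFinrankEq F (∀ j, Q (p j ^ e j)) hfr).equivFun⟩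
  let a : Module.End F (Fin n → F) :=
    ((φ : (∀ j, Q (p j ^ e j)) →ₗ[F] (Fin n → F)).comp (mulF X (∀ j, Q (p j ^ e j)))).comp (φ.symm : (Fin n → F) →ₗ[F] (∀ j, Q (p j ^ e j)))
  refine ⟨a, h1, h2, h3, φ.symm, fun v => ?_⟩
  change φ.symm (φ ((X : F[X]) • (φ.symm v))) = _
  rw [LinearEquiv.symm_apply_apply]

theorem exists_fam_of_multiset {S : Type*} (T : Multiset S) : ∃ (k : ℕ) (f : Fin k → S), T = Finset.univ.val.map f := by
  obtain ⟨l, rfl⟩ := Quot.exists_rep T
  refine ⟨l.length, l.get, ?_⟩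
  have h1 : (Finset.univ : Finset (Fin l.length)).val = (List.finRange l.length : Multiset (Fin l.length)) := rfl
  rw [h1, Multiset.map_coe]
  congr 1
  exact (List.map_get_finRange l).symm

theorem exists_of_type (T : Multiset (F[X] × ℕ)) (hT : Valid T) (n : ℕ) (hn : size T = n) : ∃ A : Matrix (Fin n) (Fin n) F, HasType (Matrix.toLin' A : Module.End F (Fin n → F)) T := by
  obtain ⟨k, f, rfl⟩ := exists_fam_of_multiset T
  have hmem : ∀ j, f j ∈ Finset.univ.val.map f := fun j => Multiset.mem_map_of_mem _ (Finset.mem_univ j)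
  obtain ⟨a, D⟩ := exists_of_fam (fun j => (f j).1) (fun j => (f j).2) (fun j => (hT _ (hmem j)).1) (fun j => (hT _ (hmem j)).2.1) (fun j => (hT _ (hmem j)).2.2) n (by
    rw [← hn]; unfold size; rw [Multiset.map_map]; rfl)
  refine ⟨LinearMap.toMatrix' a, k, _, _, ?_, rfl⟩
  rw [Matrix.toLin'_toMatrix']
  exact D

end Cfsg.Agent.H15.RC
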