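import Mathlib
import Cfsg.Agent.H15_RC2

set_option autoImplicit false
set_option linter.all false
open Polynomial Module Matrix

namespace Cfsg.Agent.H15.RC

universe u
variable {F : Type u} [Field F]

/-- invertibility -/
theorem HasType.no_X {V : Type*} [AddCommGroup V] [Module F V] [Module.Finite F V] {a : Module.End F V} {T : Multiset (F[X] × ℕ)} (h : HasType a T)
    (ha : Function.Surjective a) : ∀ t ∈ T, t.1 ≠ X := by
  classical
  obtain ⟨k, p, e, D, rfl⟩ := h
  intro t ht
  rw [Multiset.mem_map] at ht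
  obtain ⟨j, -, rfl⟩ := ht
  intro hj
  have h1 := D.rk_pow irreducible_X monic_X 1
  have h2 : rk a (X ^ 1) = finrank F V := by
    unfold rk
    rw [pow_one, aeval_X, LinearMap.range_eq_top.2 ha, finrank_top]
  rw [h2, D.finrank_eq] at h1
  have h3 : ∀ i ∈ Finset.univ, (if p i = X then (e i - 1) * (X : F[X]).natDegree else e i * (p i).natDegree) ≤ e i * (p i).natDegree := by
    intro i _
    split_ifs with h4
    · rw [h4]; exact Nat.mul_le_mul_right _ (Nat.sub_le _ _)
    · exact le_rfl
  have h5 := (Finset.sum_eq_sum_iff_of_le h3).1 h1.symm j (Finset.mem_univ j)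
  simp only at hj
  rw [if_pos hj, hj, natDegree_X, mul_one, mul_one] at h5
  have := D.pos j
  omega

theorem coprime_prod (x : F[X]) (S : Multiset F[X]) (h : ∀ y ∈ S, IsCoprime x y) : IsCoprime x S.prod := by
  induction S using Multiset.induction_on with
  | empty => exact isCoprime_one_right
  | cons y S ih =>
    rw [Multiset.prod_cons]
    exact (h y (Multiset.mem_cons_self _ _)).mul_right (ih (fun z hz => h z (Multiset.mem_cons_of_mem hz)))

theorem HasType.surj {V : Type*} [AddCommGroup V] [Module F V] [Module.Finite F V] {a : Module.End F V} {T : Multiset (F[X] × ℕ)} (h : HasType a T)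
    (hX : ∀ t ∈ T, t.1 ≠ X) : Function.Surjective a := by
  classical
  have hv := h.valid
  -- M = product of all elementary divisors
  have h0 : aeval a ((T.map (fun t => t.1 ^ t.2)).prod) = 0 := by
    rw [h.aeval_eq_zero]
    intro t ht
    exact Multiset.dvd_prod (Multiset.mem_map_of_mem _ ht)
  have hc : IsCoprime (X : F[X]) ((T.map (fun t => t.1 ^ t.2)).prod) := by
    apply coprime_prod
    intro y hy
    rw [Multiset.mem_map] at hy
    obtain ⟨t, ht, rfl⟩ := hy
    apply IsCoprime.pow_right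
    rcases EuclideanDomain.dvd_or_coprime (X : F[X]) t.1 irreducible_X with h1 | h1
    · exfalso
      apply hX t ht
      exact (eq_of_monic_of_associated monic_X (hv t ht).2.1 (irreducible_X.associated_of_dvd (hv t ht).1 h1)).symm
    · exact h1
  obtain ⟨u, v, huv⟩ := hc
  have h1 := congrArg (aeval a) huv
  rw [map_add, map_mul, map_mul, h0, mul_zero, add_zero, aeval_X, map_one] at h1
  have h2 : Function.Injective a := by
    intro x y hxy
    have e1 := LinearMap.congr_fun h1 x
    have e2 := LinearMap.congr_fun h1 y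
    rw [Module.End.mul_apply, Module.End.one_apply] at e1 e2
    rw [← e1, ← e2, hxy]
  exact LinearMap.surjective_of_injective h2

section GLn
variable {n : ℕ}

/-- the type of a matrix -/
abbrev MT (A : Matrix (Fin n) (Fin n) F) (T : Multiset (F[X] × ℕ)) : Prop := HasType (Matrix.toLin' A : Module.End F (Fin n → F)) T

theorem toLin'_surj (g : GL (Fin n) F) : Function.Surjective (Matrix.toLin' (g : Matrix (Fin n) (Fin n) F)) := by
  intro y
  refine ⟨Matrix.toLin' (g⁻¹ : GL (Fin n) F).1 y, ?_⟩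
  rw [← Matrix.toLin'_mul_apply]
  have : (g : Matrix (Fin n) (Fin n) F) * (g⁻¹ : GL (Fin n) F).1 = 1 := Units.mul_inv g
  rw [this, Matrix.toLin'_one]; rfl

theorem exists_GL {A : Matrix (Fin n) (Fin n) F} (h : Function.Surjective (Matrix.toLin' A)) : ∃ g : GL (Fin n) F, (g : Matrix (Fin n) (Fin n) F) = A := by
  have h1 : IsUnit A := by
    have h2 : Function.Injective (Matrix.toLin' A) := LinearMap.injective_iff_surjective.2 h
    exact Matrix.mulVec_injective_iff_isUnit.1 h2
  exact ⟨h1.unit, rfl⟩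

theorem isConj_iff_type (g h : GL (Fin n) F) {T T' : Multiset (F[X] × ℕ)} (hg : MT (g : Matrix (Fin n) (Fin n) F) T) (hh : MT (h : Matrix (Fin n) (Fin n) F) T') :
    IsConj g h ↔ T = T' := by
  constructor
  · intro hc
    obtain ⟨c, hc⟩ := isConj_iff.1 hc
    have h1 : c * g = h * c := by rw [← hc]; group
    let φ : (Fin n → F) ≃ₗ[F] (Fin n → F) := Matrix.GeneralLinearGroup.toLin c |>.toLinearEquiv
    apply type_unique hg hh φ
    intro v
    change (c : Matrix (Fin n) (Fin n) F) *ᵥ ((g : Matrix (Fin n) (Fin n) F) *ᵥ v) = (h : Matrix (Fin n) (Fin n) F) *ᵥ ((c : Matrix (Fin n) (Fin n) F) *ᵥ v)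
    rw [Matrix.mulVec_mulVec, Matrix.mulVec_mulVec]
    congr 1
    exact congrArg Units.val h1
  · rintro rfl
    obtain ⟨φ, hφ⟩ := similar_of_type hg hh
    obtain ⟨c, hc⟩ := isConj_of_equiv φ hφ
    rw [isConj_iff]
    refine ⟨c, ?_⟩
    rw [mul_inv_eq_iff_eq_mul]
    exact Units.ext hc

noncomputable def typ (C : ConjClasses (GL (Fin n) F)) : Multiset (F[X] × ℕ) :=
  Classical.choose (exists_type (Matrix.toLin' ((Quotient.out C : GL (Fin n) F) : Matrix (Fin n) (Fin n) F) : Module.End F (Fin n → F)))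

theorem typ_out (C : ConjClasses (GL (Fin n) F)) : MT ((Quotient.out C : GL (Fin n) F) : Matrix (Fin n) (Fin n) F) (typ C) :=
  Classical.choose_spec (exists_type (Matrix.toLin' ((Quotient.out C : GL (Fin n) F) : Matrix (Fin n) (Fin n) F) : Module.End F (Fin n → F)))

theorem typ_mk (g : GL (Fin n) F) {T : Multiset (F[X] × ℕ)} (h : MT (g : Matrix (Fin n) (Fin n) F) T) : typ (ConjClasses.mk g) = T := by
  rw [eq_comm, ← isConj_iff_type g _ h (typ_out _)]
  exact (ConjClasses.mk_eq_mk_iff_isConj.1 (Quotient.out_eq (ConjClasses.mk g))).symm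

theorem typ_spec (g : GL (Fin n) F) : MT (g : Matrix (Fin n) (Fin n) F) (typ (ConjClasses.mk g)) := by
  obtain ⟨T, hT⟩ := exists_type (Matrix.toLin' (g : Matrix (Fin n) (Fin n) F) : Module.End F (Fin n → F))
  rw [typ_mk g hT]; exact hT

theorem typ_inj : Function.Injective (typ : ConjClasses (GL (Fin n) F) → _) := by
  intro C D h
  obtain ⟨g, rfl⟩ := ConjClasses.mk_surjective C
  obtain ⟨k, rfl⟩ := ConjClasses.mk_surjective D
  rw [ConjClasses.mk_eq_mk_iff_isConj, isConj_iff_type g k (typ_spec g) (typ_spec k)]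
  exact h

/-- admissible types for GL_n -/
def Adm (n : ℕ) (T : Multiset (F[X] × ℕ)) : Prop := Valid T ∧ size T = n ∧ ∀ t ∈ T, t.1 ≠ X

theorem typ_adm (C : ConjClasses (GL (Fin n) F)) : Adm n (typ C) := by
  obtain ⟨g, rfl⟩ := ConjClasses.mk_surjective C
  have h := typ_spec g
  refine ⟨h.valid, ?_, h.no_X (toLin'_surj g)⟩
  rw [h.size_eq, finrank_fin_fun]

theorem exists_of_adm {T : Multiset (F[X] × ℕ)} (h : Adm n T) : ∃ g : GL (Fin n) F, MT (g : Matrix (Fin n) (Fin n) F) T := by
  obtain ⟨A, hA⟩ := exists_of_type T h.1 n h.2.1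
  obtain ⟨g, rfl⟩ := exists_GL (hA.surj h.2.2)
  exact ⟨g, hA⟩

/-- counting classes with a property -/
theorem card_classes (P : GL (Fin n) F → Prop) (P' : Multiset (F[X] × ℕ) → Prop) (h : ∀ (g : GL (Fin n) F) T, MT (g : Matrix (Fin n) (Fin n) F) T → (P g ↔ P' T)) :
    Nat.card {C : ConjClasses (GL (Fin n) F) // ∃ g : GL (Fin n) F, P g ∧ ConjClasses.mk g = C} = Nat.card {T : Multiset (F[X] × ℕ) // Adm n T ∧ P' T} := by
  apply Nat.card_congr
  refine Equiv.ofBijective (fun C => ⟨typ C.1, typ_adm _, ?_⟩) ⟨?_, ?_⟩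
  · obtain ⟨C, g, hg, rfl⟩ := C
    exact (h g _ (typ_spec g)).1 hg
  · intro C D hCD
    apply Subtype.ext
    exact typ_inj (congrArg Subtype.val hCD)
  · rintro ⟨T, hT, hP⟩
    obtain ⟨g, hg⟩ := exists_of_adm hT
    refine ⟨⟨ConjClasses.mk g, g, (h g T hg).2 hP, rfl⟩, ?_⟩
    apply Subtype.ext
    exact typ_mk g hg

end GLn

end Cfsg.Agent.H15.RC
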