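import Mathlib
import Cfsg.Agent.H15_RC3

set_option autoImplicit false
set_option linter.all false
open Polynomial Module Matrix

namespace Cfsg.Agent.H15.RC

universe u
variable {F : Type u} [Field F] {n : ℕ}

theorem MT_aeval {A : Matrix (Fin n) (Fin n) F} {T : Multiset (F[X] × ℕ)} (h : MT A T) (f : F[X]) : aeval A f = 0 ↔ ∀ t ∈ T, t.1 ^ t.2 ∣ f := by
  rw [← h.aeval_eq_zero f, aeval_toLin']
  constructor
  · intro h0; rw [h0]; exact map_zero _
  · intro h0; exact Matrix.toLin'.injective (by rw [h0, map_zero])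

theorem monic_X1 : (X - 1 : F[X]).Monic := by
  have := monic_X_sub_C (1 : F); rwa [C_1] at this

theorem irr_X1 : Irreducible (X - 1 : F[X]) := by
  have := irreducible_X_sub_C (1 : F); rwa [C_1] at this

theorem deg_X1 : (X - 1 : F[X]).natDegree = 1 := by
  have := natDegree_X_sub_C (1 : F); rwa [C_1] at this

theorem X1_ne_X : (X - 1 : F[X]) ≠ X := by
  intro h
  have := congrArg (eval 0) h
  simp at this

theorem dvd_X1_pow {P : F[X]} (hP : Irreducible P) (hm : P.Monic) {i : ℕ} (hi : 1 ≤ i) (N : ℕ) : P ^ i ∣ (X - 1) ^ N ↔ P = X - 1 ∧ i ≤ N := by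
  constructor
  · intro h
    have h1 : P ∣ (X - 1) ^ N := (dvd_pow_self P (by omega)).trans h
    have h2 : P ∣ X - 1 := hP.prime.dvd_of_dvd_pow h1
    have h3 : P = X - 1 := eq_of_monic_of_associated hm monic_X1 (hP.associated_of_dvd irr_X1 h2)
    refine ⟨h3, ?_⟩
    rw [h3] at h
    exact (pow_dvd_pow_iff irr_X1.ne_zero irr_X1.not_isUnit).1 h
  · rintro ⟨rfl, h⟩
    exact pow_dvd_pow _ h

theorem MT_unip {A : Matrix (Fin n) (Fin n) F} {T : Multiset (F[X] × ℕ)} (h : MT A T) (N : ℕ) : (A - 1) ^ N = 0 ↔ ∀ t ∈ T, t.1 = X - 1 ∧ t.2 ≤ N := by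
  have h1 := MT_aeval h ((X - 1) ^ N)
  rw [map_pow, map_sub, aeval_X, map_one] at h1
  rw [h1]
  have hv := h.valid
  constructor
  · intro h2 t ht; exact (dvd_X1_pow (hv t ht).1 (hv t ht).2.1 (hv t ht).2.2 N).1 (h2 t ht)
  · intro h2 t ht; exact (dvd_X1_pow (hv t ht).1 (hv t ht).2.1 (hv t ht).2.2 N).2 (h2 t ht)

/-- unipotent types and partitions -/
noncomputable def toPart (T : Multiset (F[X] × ℕ)) (h : Adm n T) (hu : ∀ t ∈ T, t.1 = X - 1) : Nat.Partition n where
  parts := T.map Prod.snd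
  parts_pos := by
    intro i hi
    rw [Multiset.mem_map] at hi
    obtain ⟨t, ht, rfl⟩ := hi
    exact (h.1 t ht).2.2
  parts_sum := by
    rw [← h.2.1]
    unfold size
    congr 1
    apply Multiset.map_congr rfl
    intro t ht
    rw [hu t ht, deg_X1, mul_one]

theorem ofPart_adm (μ : Nat.Partition n) : Adm (F := F) n (μ.parts.map (fun i => ((X - 1 : F[X]), i))) := by
  refine ⟨?_, ?_, ?_⟩
  · intro t ht
    rw [Multiset.mem_map] at ht
    obtain ⟨i, hi, rfl⟩ := ht
    exact ⟨irr_X1, monic_X1, μ.parts_pos hi⟩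
  · unfold size
    rw [Multiset.map_map]
    have : (fun t : F[X] × ℕ => t.2 * t.1.natDegree) ∘ (fun i => ((X - 1 : F[X]), i)) = id := by
      funext i; simp only [Function.comp_apply]; rw [deg_X1, mul_one]; rfl
    rw [this, Multiset.map_id, μ.parts_sum]
  · intro t ht
    rw [Multiset.mem_map] at ht
    obtain ⟨i, hi, rfl⟩ := ht
    exact X1_ne_X

theorem map_snd_eq {T : Multiset (F[X] × ℕ)} (hu : ∀ t ∈ T, t.1 = X - 1) : (T.map Prod.snd).map (fun i => ((X - 1 : F[X]), i)) = T := by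
  rw [Multiset.map_map]
  conv_rhs => rw [← Multiset.map_id T]
  apply Multiset.map_congr rfl
  intro t ht
  simp only [Function.comp_apply, id]
  rw [← hu t ht]

/-- counting unipotent types -/
theorem card_unip (R : Multiset ℕ → Prop) :
    Nat.card {T : Multiset (F[X] × ℕ) // Adm n T ∧ ((∀ t ∈ T, t.1 = X - 1) ∧ R (T.map Prod.snd))} = Nat.card {μ : Nat.Partition n // R μ.parts} := by
  apply Nat.card_congr
  refine Equiv.ofBijective (fun T => ⟨toPart T.1 T.2.1 T.2.2.1, T.2.2.2⟩) ⟨?_, ?_⟩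
  · rintro ⟨T, hT1, hT2, hT3⟩ ⟨S, hS1, hS2, hS3⟩ h
    apply Subtype.ext
    have h1 : T.map Prod.snd = S.map Prod.snd := congrArg (fun μ => (Subtype.val μ).parts) h
    change T = S
    rw [← map_snd_eq hT2, h1, map_snd_eq hS2]
  · rintro ⟨μ, hμ⟩
    have hms : (μ.parts.map (fun i => ((X - 1 : F[X]), i))).map Prod.snd = μ.parts := by
      rw [Multiset.map_map]; exact Multiset.map_id _
    have hu : ∀ t ∈ μ.parts.map (fun i => ((X - 1 : F[X]), i)), t.1 = X - 1 := by
      intro t ht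
      rw [Multiset.mem_map] at ht
      obtain ⟨i, hi, rfl⟩ := ht
      rfl
    refine ⟨⟨μ.parts.map (fun i => ((X - 1 : F[X]), i)), ofPart_adm μ, hu, by rw [hms]; exact hμ⟩, ?_⟩
    apply Subtype.ext
    apply Nat.Partition.ext
    exact hms

theorem pow_char_iff (p : ℕ) [Fact p.Prime] [CharP F p] (g : GL (Fin n) F) (k : ℕ) :
    g ^ (p ^ k) = 1 ↔ ((g : Matrix (Fin n) (Fin n) F) - 1) ^ (p ^ k) = 0 := by
  rcases Nat.eq_zero_or_pos n with rfl | hn
  · constructor
    · intro _; exact Subsingleton.elim _ _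
    · intro _; exact Subsingleton.elim _ _
  haveI : Nonempty (Fin n) := ⟨⟨0, hn⟩⟩
  rw [sub_pow_char_pow_of_commute _ _ (Commute.one_right _), one_pow, sub_eq_zero, Units.ext_iff]
  rfl

theorem main2317 (p : ℕ) [Fact p.Prime] [CharP F p] :
    Nat.card {C : ConjClasses (Matrix.GeneralLinearGroup (Fin n) F) //
      ∃ g : Matrix.GeneralLinearGroup (Fin n) F, (∃ k : ℕ, orderOf g = p ^ k) ∧ ConjClasses.mk g = C} =
      Fintype.card (Nat.Partition n) := by
  have hp : p.Prime := Fact.out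
  rw [card_classes (P := fun g => ∃ k : ℕ, orderOf g = p ^ k) (P' := fun T => (∀ t ∈ T, t.1 = X - 1) ∧ True), card_unip (fun _ => True)]
  · rw [← Nat.card_eq_fintype_card]
    exact Nat.card_congr (Equiv.subtypeUnivEquiv (fun _ => trivial))
  · intro g T hT
    constructor
    · rintro ⟨k, hk⟩
      have h1 : g ^ (p ^ k) = 1 := by rw [← hk]; exact pow_orderOf_eq_one g
      rw [pow_char_iff, MT_unip hT] at h1
      exact ⟨fun t ht => (h1 t ht).1, trivial⟩
    · rintro ⟨h1, -⟩
      have h2 : g ^ (p ^ n) = 1 := by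
        rw [pow_char_iff, MT_unip hT]
        intro t ht
        refine ⟨h1 t ht, ?_⟩
        have h3 : t.2 * t.1.natDegree ≤ n := by
          have := typ_adm (ConjClasses.mk g)
          rw [typ_mk g hT] at this
          rw [← this.2.1]
          exact Multiset.single_le_sum (fun _ _ => Nat.zero_le _) _ (Multiset.mem_map_of_mem _ ht)
        rw [h1 t ht, deg_X1, mul_one] at h3
        exact h3.trans (Nat.lt_pow_self hp.one_lt).le
      obtain ⟨k, -, hk⟩ := (Nat.dvd_prime_pow hp).1 (orderOf_dvd_of_pow_eq_one h2)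
      exact ⟨k, hk⟩

theorem main2570 {p : ℕ} [Fact p.Prime] [CharP F p] (n : ℕ) :
    Nat.card {C : ConjClasses (GL (Fin n) F) // ∃ g : GL (Fin n) F, ConjClasses.mk g = C ∧ orderOf g = p} = (Finset.univ.filter (fun μ : Nat.Partition n => ∀ a ∈ μ.parts, a ≤ p)).card - 1 := by
  classical
  have hp : p.Prime := Fact.out
  have e1 : Nat.card {C : ConjClasses (GL (Fin n) F) // ∃ g : GL (Fin n) F, ConjClasses.mk g = C ∧ orderOf g = p} =
      Nat.card {C : ConjClasses (GL (Fin n) F) // ∃ g : GL (Fin n) F, orderOf g = p ∧ ConjClasses.mk g = C} := by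
    simp only [and_comm]
  rw [e1, card_classes (P := fun g => orderOf g = p) (P' := fun T => (∀ t ∈ T, t.1 = X - 1) ∧ ((∀ i ∈ T.map Prod.snd, i ≤ p) ∧ ¬ (∀ i ∈ T.map Prod.snd, i ≤ 1))),
    card_unip (fun M => (∀ i ∈ M, i ≤ p) ∧ ¬ (∀ i ∈ M, i ≤ 1))]
  · rw [Nat.card_eq_fintype_card, Fintype.card_subtype]
    have e2 : (Finset.univ.filter (fun μ : Nat.Partition n => (∀ i ∈ μ.parts, i ≤ p) ∧ ¬ (∀ i ∈ μ.parts, i ≤ 1))) =
        (Finset.univ.filter (fun μ : Nat.Partition n => ∀ a ∈ μ.parts, a ≤ p)).erase (Nat.Partition.ofSums n (Multiset.replicate n 1) (by simp)) := by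
      ext μ
      simp only [Finset.mem_filter, Finset.mem_univ, true_and, Finset.mem_erase]
      have : μ ≠ Nat.Partition.ofSums n (Multiset.replicate n 1) (by simp) ↔ ¬ (∀ i ∈ μ.parts, i ≤ 1) := by
        rw [not_iff_not]
        constructor
        · rintro rfl i hi
          rw [Nat.Partition.ofSums_parts, Multiset.mem_filter, Multiset.mem_replicate] at hi
          omega
        · intro h
          apply Nat.Partition.ext
          have h1 : μ.parts = Multiset.replicate (Multiset.card μ.parts) 1 := Multiset.eq_replicate_card.2 (fun i hi => le_antisymm (h i hi) (μ.parts_pos hi))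
          have h2 : Multiset.card μ.parts = n := by
            have := μ.parts_sum
            rw [h1, Multiset.sum_replicate, smul_eq_mul, mul_one] at this
            exact this
          rw [h1, h2, Nat.Partition.ofSums_parts, Multiset.filter_eq_self.2]
          intro a ha
          rw [Multiset.mem_replicate] at ha
          omega
      rw [this, and_comm]
    rw [e2, Finset.card_erase_of_mem]
    rw [Finset.mem_filter]
    refine ⟨Finset.mem_univ _, fun i hi => ?_⟩
    rw [Nat.Partition.ofSums_parts, Multiset.mem_filter, Multiset.mem_replicate] at hi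
    have := hp.one_lt
    omega
  · intro g T hT
    have h1 : g ^ p = 1 ↔ ∀ t ∈ T, t.1 = X - 1 ∧ t.2 ≤ p := by
      have := pow_char_iff p g 1
      rw [pow_one] at this
      rw [this, MT_unip hT]
    have h2 : g = 1 ↔ ∀ t ∈ T, t.1 = X - 1 ∧ t.2 ≤ 1 := by
      rw [← MT_unip hT, pow_one, sub_eq_zero, Units.ext_iff]; rfl
    have h3 : orderOf g = p ↔ g ^ p = 1 ∧ ¬ g = 1 := by
      constructor
      · intro h
        refine ⟨h ▸ pow_orderOf_eq_one g, ?_⟩
        rintro rfl
        rw [orderOf_one] at h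
        exact hp.one_lt.ne h
      · rintro ⟨h4, h5⟩
        exact orderOf_eq_prime h4 h5
    rw [h3, h1, h2]
    simp only [Multiset.mem_map]
    constructor
    · rintro ⟨h4, h5⟩
      refine ⟨fun t ht => (h4 t ht).1, ?_, ?_⟩
      · rintro i ⟨t, ht, rfl⟩; exact (h4 t ht).2
      · intro h6
        apply h5
        intro t ht
        exact ⟨(h4 t ht).1, h6 _ ⟨t, ht, rfl⟩⟩
    · rintro ⟨h4, h5, h6⟩
      refine ⟨fun t ht => ⟨h4 t ht, h5 _ ⟨t, ht, rfl⟩⟩, fun h7 => h6 ?_⟩
      rintro i ⟨t, ht, rfl⟩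
      exact (h7 t ht).2

end Cfsg.Agent.H15.RC
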