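import Mathlib
import Cfsg.Agent.H15_RC4

set_option autoImplicit false
set_option linter.all false
open Polynomial Module Matrix UniqueFactorizationMonoid

namespace Cfsg.Agent.H15.RC

universe u
variable {F : Type u} [Field F]

/-- monic polynomials of degree m with nonzero constant term -/
def PP (F : Type u) [Field F] (m : ℕ) : Type u := {f : F[X] // f.Monic ∧ f.natDegree = m ∧ f.coeff 0 ≠ 0}

/-- all monic polynomials of degree m -/
noncomputable def monicEquiv (m : ℕ) : {f : F[X] // f.Monic ∧ f.natDegree = m} ≃ (Fin m → F) :=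
  Equiv.ofBijective (fun f i => f.1.coeff i) (by
    constructor
    · rintro ⟨f, hf, hfm⟩ ⟨g, hg, hgm⟩ h
      apply Subtype.ext
      ext i
      rcases lt_trichotomy i m with hi | hi | hi
      · exact congrFun h ⟨i, hi⟩
      · subst hi
        have h1 : f.coeff i = 1 := by rw [← hfm]; exact hf
        have h2 : g.coeff i = 1 := by rw [← hgm]; exact hg
        rw [h1, h2]
      · change f.coeff i = g.coeff i
        rw [coeff_eq_zero_of_natDegree_lt (by omega), coeff_eq_zero_of_natDegree_lt (by omega)]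
    · intro c
      have hd : (∑ i : Fin m, C (c i) * X ^ (i : ℕ) : F[X]).degree < (m : WithBot ℕ) := degree_sum_fin_lt c
      refine ⟨⟨X ^ m + ∑ i : Fin m, C (c i) * X ^ (i : ℕ), monic_X_pow_add hd, (natDegree_add_eq_left_of_degree_lt (by rwa [degree_X_pow])).trans (natDegree_X_pow m)⟩, ?_⟩
      funext j
      change (X ^ m + ∑ i : Fin m, C (c i) * X ^ (i : ℕ)).coeff j = c j
      rw [coeff_add, coeff_X_pow, if_neg (by have := j.2; omega), zero_add, finset_sum_coeff]
      rw [Finset.sum_eq_single j]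
      · rw [coeff_C_mul, coeff_X_pow, if_pos rfl, mul_one]
      · intro b _ hb
        rw [coeff_C_mul, coeff_X_pow, if_neg (fun h => hb (Fin.ext h.symm)), mul_zero]
      · intro h; exact absurd (Finset.mem_univ j) h)

theorem finite_monic [Finite F] (m : ℕ) : Finite {f : F[X] // f.Monic ∧ f.natDegree = m} := Finite.of_equiv _ (monicEquiv m).symm

instance [Finite F] (m : ℕ) : Finite (PP F m) := by
  haveI := finite_monic (F := F) m
  exact Finite.of_injective (fun f : PP F m => (⟨f.1, f.2.1, f.2.2.1⟩ : {f : F[X] // f.Monic ∧ f.natDegree = m})) (by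
    rintro ⟨f, hf⟩ ⟨g, hg⟩ h
    have := congrArg Subtype.val h
    exact Subtype.ext this)

/-- the number of polynomials -/
def cc (q m : ℕ) : ℕ := if m = 0 then 1 else (q - 1) * q ^ (m - 1)

theorem card_PP [Fintype F] (m : ℕ) : Nat.card (PP F m) = cc (Fintype.card F) m := by
  classical
  rcases Nat.eq_zero_or_pos m with rfl | hm
  · unfold cc
    rw [if_pos rfl, Nat.card_eq_one_iff_unique]
    constructor
    · constructor
      rintro ⟨f, hf, hf0, _⟩ ⟨g, hg, hg0, _⟩
      apply Subtype.ext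
      change f = g
      rw [(hf.natDegree_eq_zero).1 hf0, (hg.natDegree_eq_zero).1 hg0]
    · exact ⟨⟨1, monic_one, natDegree_one, by rw [coeff_one_zero]; exact one_ne_zero⟩⟩
  · obtain ⟨k, rfl⟩ := Nat.exists_eq_add_of_le' (show 1 ≤ m from hm)
    have e : PP F (k+1) ≃ {c : Fin (k+1) → F // c 0 ≠ 0} :=
      { toFun := fun f => ⟨monicEquiv (k+1) ⟨f.1, f.2.1, f.2.2.1⟩, f.2.2.2⟩
        invFun := fun c => ⟨((monicEquiv (k+1)).symm c.1).1, ((monicEquiv (k+1)).symm c.1).2.1, ((monicEquiv (k+1)).symm c.1).2.2, by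
          have h1 := congrFun ((monicEquiv (k+1)).apply_symm_apply c.1) 0
          have h2 : ((monicEquiv (k+1)).symm c.1).1.coeff 0 = c.1 0 := h1
          rw [h2]; exact c.2⟩
        left_inv := fun f => by
          apply Subtype.ext
          simp
        right_inv := fun c => by
          apply Subtype.ext
          simp }
    have e2 : {c : Fin (k+1) → F // c 0 ≠ 0} ≃ {a : F // a ≠ 0} × (Fin k → F) :=
      { toFun := fun c => (⟨c.1 0, c.2⟩, fun i => c.1 i.succ)
        invFun := fun x => ⟨Fin.cons x.1.1 x.2, by rw [Fin.cons_zero]; exact x.1.2⟩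
        left_inv := fun c => by
          apply Subtype.ext
          funext i
          refine Fin.cases ?_ (fun j => ?_) i
          · rfl
          · rfl
        right_inv := fun x => by
          ext
          · rfl
          · rfl }
    rw [Nat.card_congr e, Nat.card_congr e2, Nat.card_prod, Nat.card_fun]
    unfold cc
    rw [if_neg (by omega), Nat.card_eq_fintype_card (α := F), Nat.card_eq_fintype_card (α := Fin k), Fintype.card_fin, Nat.add_sub_cancel]
    congr 1
    rw [Nat.card_eq_fintype_card, Fintype.card_subtype_compl, Fintype.card_subtype_eq]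

/-- types with parts in I -/
def Ty (F : Type u) [Field F] (I : ℕ → Prop) (N : ℕ) : Type u := {T : Multiset (F[X] × ℕ) // Adm N T ∧ ∀ t ∈ T, I t.2}


instance [Finite F] (I : ℕ → Prop) (N : ℕ) : Finite (Ty F I N) := by
  choose g hg using fun T : Ty F I N => exists_of_adm T.2.1
  apply Finite.of_injective (fun T : Ty F I N => ConjClasses.mk (g T))
  intro T S h
  apply Subtype.ext
  have := congrArg typ h
  simp only at this
  rw [typ_mk _ (hg T), typ_mk _ (hg S)] at this
  exact this

theorem size_add (T S : Multiset (F[X] × ℕ)) : size (T + S) = size T + size S := by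
  unfold size; rw [Multiset.map_add, Multiset.sum_add]

open Classical in
/-- the multiset of monic irreducible factors -/
noncomputable def nf (f : F[X]) : Multiset F[X] := normalizedFactors f

theorem nf_prod {f : F[X]} (hf : f.Monic) : (nf f).prod = f := by
  classical
  unfold nf
  rw [prod_normalizedFactors_eq hf.ne_zero]
  exact hf.normalize_eq_self

theorem nf_mem {f : F[X]} (hf : f.Monic) {P : F[X]} (h : P ∈ nf f) : Irreducible P ∧ P.Monic ∧ P ∣ f := by
  classical
  unfold nf at h
  rw [mem_normalizedFactors_iff' hf.ne_zero] at h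
  exact ⟨h.1, by rw [← h.2.1]; exact monic_normalize h.1.ne_zero, h.2.2⟩

theorem nf_of_prod (S : Multiset F[X]) (h : ∀ P ∈ S, Irreducible P ∧ P.Monic) : nf S.prod = S := by
  classical
  unfold nf
  rw [normalizedFactors_prod_eq S (fun P hP => (h P hP).1)]
  conv_rhs => rw [← Multiset.map_id S]
  exact Multiset.map_congr rfl (fun P hP => (h P hP).2.normalize_eq_self)

theorem natDegree_prod (S : Multiset F[X]) (h : ∀ P ∈ S, P.Monic) : S.prod.natDegree = (S.map natDegree).sum :=
  natDegree_multiset_prod_of_monic S h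

theorem X_dvd_iff_mem {f : F[X]} (hf : f.Monic) : f.coeff 0 ≠ 0 ↔ ∀ P ∈ nf f, P ≠ X := by
  classical
  rw [Ne, ← X_dvd_iff]
  constructor
  · rintro h P hP rfl
    exact h (nf_mem hf hP).2.2
  · intro h hX
    obtain ⟨P, hP, hP2⟩ := exists_mem_normalizedFactors_of_dvd hf.ne_zero irreducible_X hX
    have h1 := nf_mem hf (P := P) hP
    exact h P hP (eq_of_monic_of_associated h1.2.1 monic_X hP2.symm)

theorem size_map_nf {f : F[X]} (hf : f.Monic) (i : ℕ) : size ((nf f).map (fun P => (P, i))) = i * f.natDegree := by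
  unfold size
  rw [Multiset.map_map]
  have : ((fun t : F[X] × ℕ => t.2 * t.1.natDegree) ∘ fun P => (P, i)) = fun P => i * natDegree P := rfl
  rw [this, Multiset.sum_map_mul_left]
  congr 1
  conv_rhs => rw [← nf_prod hf]
  rw [natDegree_prod _ (fun P hP => (nf_mem hf hP).2.1)]

/-- the combination map -/
noncomputable def comb (I : ℕ → Prop) (i N : ℕ) (hi : 1 ≤ i) (x : Σ m : Fin (N / i + 1), PP F m × Ty F I (N - i * m)) : Ty F (fun j => I j ∨ j = i) N :=
  ⟨(nf x.2.1.1).map (fun P => (P, i)) + x.2.2.1, by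
    obtain ⟨m, ⟨f, hf, hfm, hf0⟩, ⟨T, hT, hTI⟩⟩ := x
    have hm : i * m ≤ N := by
      have h1 := m.2
      have h2 : (m : ℕ) ≤ N / i := by omega
      calc i * m ≤ i * (N / i) := Nat.mul_le_mul_left _ h2
        _ ≤ N := Nat.mul_div_le N i
    refine ⟨⟨?_, ?_, ?_⟩, ?_⟩
    · intro t ht
      rcases Multiset.mem_add.1 ht with ht | ht
      · rw [Multiset.mem_map] at ht
        obtain ⟨P, hP, rfl⟩ := ht
        exact ⟨(nf_mem hf hP).1, (nf_mem hf hP).2.1, hi⟩
      · exact hT.1 t ht
    · rw [size_add, size_map_nf hf, hT.2.1]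
      rw [hfm]; omega
    · intro t ht
      rcases Multiset.mem_add.1 ht with ht | ht
      · rw [Multiset.mem_map] at ht
        obtain ⟨P, hP, rfl⟩ := ht
        exact (X_dvd_iff_mem hf).1 hf0 P hP
      · exact hT.2.2 t ht
    · intro t ht
      rcases Multiset.mem_add.1 ht with ht | ht
      · rw [Multiset.mem_map] at ht
        obtain ⟨P, hP, rfl⟩ := ht
        exact Or.inr rfl
      · exact Or.inl (hTI t ht)⟩

theorem comb_bij (I : ℕ → Prop) (i N : ℕ) (hi : 1 ≤ i) (hI : ¬ I i) : Function.Bijective (comb (F := F) I i N hi) := by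
  classical
  constructor
  · rintro ⟨m, ⟨f, hf, hfm, hf0⟩, ⟨T, hT, hTI⟩⟩ ⟨m', ⟨f', hf', hfm', hf0'⟩, ⟨T', hT', hTI'⟩⟩ h
    have h1 : (nf f).map (fun P => (P, i)) + T = (nf f').map (fun P => (P, i)) + T' := congrArg Subtype.val h
    have hfil : ∀ (g : F[X]) (S : Multiset (F[X] × ℕ)), (∀ t ∈ S, I t.2) → ((nf g).map (fun P => (P, i)) + S).filter (fun t => t.2 = i) = (nf g).map (fun P => (P, i)) := by
      intro g S hS
      rw [Multiset.filter_add, Multiset.filter_eq_self.2, Multiset.filter_eq_nil.2, add_zero]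
      · intro t ht h2; exact hI (h2 ▸ hS t ht)
      · intro t ht; rw [Multiset.mem_map] at ht; obtain ⟨P, -, rfl⟩ := ht; rfl
    have h2 : (nf f).map (fun P => (P, i)) = (nf f').map (fun P => (P, i)) := by
      rw [← hfil f T hTI, h1, hfil f' T' hTI']
    have h3 : nf f = nf f' := Multiset.map_injective (fun a b hab => congrArg Prod.fst hab) h2
    have h4 : f = f' := by rw [← nf_prod hf, h3, nf_prod hf']
    rw [h2] at h1
    have h5 : T = T' := add_left_cancel h1
    subst h4 h5
    have h6 : m = m' := Fin.ext (by rw [← hfm, hfm'])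
    subst h6
    rfl
  · rintro ⟨T, hT, hTI⟩
    set S := (T.filter (fun t => t.2 = i)).map Prod.fst with hS
    have hSi : ∀ P ∈ S, Irreducible P ∧ P.Monic ∧ P ≠ X := by
      intro P hP
      rw [hS, Multiset.mem_map] at hP
      obtain ⟨t, ht, rfl⟩ := hP
      rw [Multiset.mem_filter] at ht
      exact ⟨(hT.1 t ht.1).1, (hT.1 t ht.1).2.1, hT.2.2 t ht.1⟩
    have hSm : S.prod.Monic := by
      have := monic_multiset_prod_of_monic S id (fun P hP => (hSi P hP).2.1)
      rwa [Multiset.map_id] at this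
    have hnf : nf S.prod = S := nf_of_prod S (fun P hP => ⟨(hSi P hP).1, (hSi P hP).2.1⟩)
    have hS0 : S.prod.coeff 0 ≠ 0 := by
      rw [X_dvd_iff_mem hSm, hnf]; exact fun P hP => (hSi P hP).2.2
    have hSS : S.map (fun P => (P, i)) = T.filter (fun t => t.2 = i) := by
      rw [hS, Multiset.map_map]
      conv_rhs => rw [← Multiset.map_id (T.filter (fun t => t.2 = i))]
      apply Multiset.map_congr rfl
      intro t ht
      rw [Multiset.mem_filter] at ht
      simp only [Function.comp_apply, id]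
      rw [← ht.2]
    have hsum : S.map (fun P => (P, i)) + T.filter (fun t => ¬ t.2 = i) = T := by
      rw [hSS]; exact Multiset.filter_add_not _ _
    have hsize : i * S.prod.natDegree + size (T.filter (fun t => ¬ t.2 = i)) = N := by
      rw [← size_map_nf hSm, ← size_add, hnf, hsum]; exact hT.2.1
    have hm : S.prod.natDegree < N / i + 1 := by
      rw [Nat.lt_succ_iff, Nat.le_div_iff_mul_le hi, mul_comm]; omega
    refine ⟨⟨⟨S.prod.natDegree, hm⟩, ⟨S.prod, hSm, rfl, hS0⟩, ⟨T.filter (fun t => ¬ t.2 = i), ⟨?_, ?_, ?_⟩, ?_⟩⟩, ?_⟩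
    · intro t ht; exact hT.1 t (Multiset.mem_of_mem_filter ht)
    · simp only; omega
    · intro t ht; exact hT.2.2 t (Multiset.mem_of_mem_filter ht)
    · intro t ht
      rw [Multiset.mem_filter] at ht
      exact (hTI t ht.1).resolve_right ht.2
    · apply Subtype.ext
      change (nf S.prod).map (fun P => (P, i)) + T.filter (fun t => ¬ t.2 = i) = T
      rw [hnf, hsum]

theorem card_rec [Fintype F] (I : ℕ → Prop) (i N : ℕ) (hi : 1 ≤ i) (hI : ¬ I i) :
    Nat.card (Ty F (fun j => I j ∨ j = i) N) = ∑ m ∈ Finset.range (N / i + 1), cc (Fintype.card F) m * Nat.card (Ty F I (N - i * m)) := by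
  rw [← Nat.card_congr (Equiv.ofBijective _ (comb_bij (F := F) I i N hi hI)), Nat.card_sigma, Finset.sum_range]
  refine Finset.sum_congr rfl (fun m _ => ?_)
  rw [Nat.card_prod, card_PP]


/-- number of types with parts at most L -/
noncomputable def KK (F : Type u) [Field F] (L N : ℕ) : ℕ := Nat.card (Ty F (fun j => 1 ≤ j ∧ j ≤ L) N)

theorem Ty_congr (I J : ℕ → Prop) (h : ∀ j, 1 ≤ j → (I j ↔ J j)) (N : ℕ) : Nat.card (Ty F I N) = Nat.card (Ty F J N) := by
  apply Nat.card_congr
  apply Equiv.subtypeEquivRight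
  intro T
  constructor
  · rintro ⟨h1, h2⟩; exact ⟨h1, fun t ht => (h _ (h1.1 t ht).2.2).1 (h2 t ht)⟩
  · rintro ⟨h1, h2⟩; exact ⟨h1, fun t ht => (h _ (h1.1 t ht).2.2).2 (h2 t ht)⟩

theorem Ty_congr' (I J : ℕ → Prop) (N : ℕ) (h : ∀ j, 1 ≤ j → j ≤ N → (I j ↔ J j)) : Nat.card (Ty F I N) = Nat.card (Ty F J N) := by
  apply Nat.card_congr
  apply Equiv.subtypeEquivRight
  intro T
  have hb : Adm N T → ∀ t ∈ T, t.2 ≤ N := by
    intro h1 t ht
    have h3 : t.2 * t.1.natDegree ≤ N := by
      rw [← h1.2.1]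
      exact Multiset.single_le_sum (fun _ _ => Nat.zero_le _) _ (Multiset.mem_map_of_mem _ ht)
    have h4 : 1 ≤ t.1.natDegree := (h1.1 t ht).1.natDegree_pos
    nlinarith
  constructor
  · rintro ⟨h1, h2⟩; exact ⟨h1, fun t ht => (h _ (h1.1 t ht).2.2 (hb h1 t ht)).1 (h2 t ht)⟩
  · rintro ⟨h1, h2⟩; exact ⟨h1, fun t ht => (h _ (h1.1 t ht).2.2 (hb h1 t ht)).2 (h2 t ht)⟩

theorem card_Ty_zero (I : ℕ → Prop) : Nat.card (Ty F I 0) = 1 := by
  rw [Nat.card_eq_one_iff_unique]
  have key : ∀ T : Multiset (F[X] × ℕ), Adm 0 T → T = 0 := by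
    intro T hT
    apply Multiset.eq_zero_of_forall_notMem
    intro t ht
    have h3 : t.2 * t.1.natDegree ≤ 0 := by
      rw [← hT.2.1]
      exact Multiset.single_le_sum (fun _ _ => Nat.zero_le _) _ (Multiset.mem_map_of_mem _ ht)
    have h4 : 1 ≤ t.1.natDegree := (hT.1 t ht).1.natDegree_pos
    have h5 := (hT.1 t ht).2.2
    nlinarith
  constructor
  · constructor
    rintro ⟨T, hT, _⟩ ⟨S, hS, _⟩
    apply Subtype.ext
    change T = S
    rw [key T hT, key S hS]
  · exact ⟨⟨0, ⟨fun t ht => absurd ht (Multiset.notMem_zero t), rfl, fun t ht => absurd ht (Multiset.notMem_zero t)⟩, fun t ht => absurd ht (Multiset.notMem_zero t)⟩⟩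

theorem KK_zero_left (N : ℕ) : KK F 0 N = if N = 0 then 1 else 0 := by
  unfold KK
  split_ifs with h
  · subst h; exact card_Ty_zero _
  · rw [Nat.card_eq_zero]
    left
    constructor
    rintro ⟨T, hT, hTI⟩
    have : T = 0 := by
      apply Multiset.eq_zero_of_forall_notMem
      intro t ht
      have := hTI t ht
      omega
    subst this
    exact h hT.2.1.symm

theorem KK_zero_right (L : ℕ) : KK F L 0 = 1 := card_Ty_zero _

theorem KK_succ [Fintype F] (L N : ℕ) : KK F (L+1) N = ∑ m ∈ Finset.range (N / (L+1) + 1), cc (Fintype.card F) m * KK F L (N - (L+1) * m) := by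
  unfold KK
  rw [Ty_congr (fun j => 1 ≤ j ∧ j ≤ L+1) (fun j => (1 ≤ j ∧ j ≤ L) ∨ j = L+1) (fun j _ => by omega), card_rec _ (L+1) N (by omega) (by omega)]

theorem geom_aux (x y : ℚ) (M : ℕ) : ∑ m ∈ Finset.range (M+1), (if m = 0 then 1 else y * x ^ m) * (1 - x) = (1 - x) + y * (x - x ^ (M+1)) := by
  induction M with
  | zero => simp
  | succ M ih => rw [Finset.sum_range_succ, ih, if_neg (by omega)]; ring

theorem KK_bound [Fintype F] (L N : ℕ) : (KK F L N : ℚ) ≤ (Fintype.card F : ℚ) ^ N * (1 - 1 / (Fintype.card F : ℚ) ^ L) + (if N = 0 then 1 / (Fintype.card F : ℚ) ^ L else 0) := by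
  set q := Fintype.card F with hq
  have hq1 : 1 < q := Fintype.one_lt_card
  have hq0 : (0 : ℚ) < q := by positivity
  have hqn : (q : ℚ) ≠ 0 := hq0.ne'
  induction L generalizing N with
  | zero =>
    rw [KK_zero_left]
    split_ifs with h
    · subst h; simp
    · simp
  | succ L ih =>
    rcases Nat.eq_zero_or_pos N with rfl | hN
    · rw [KK_zero_right]; simp
    rw [KK_succ, if_neg hN.ne', add_zero]
    set M := N / (L+1) with hM
    set r := N % (L+1) with hr
    have hNr : (L+1) * M + r = N := Nat.div_add_mod N (L+1)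
    set x : ℚ := 1 / (q : ℚ) ^ L with hx
    set y : ℚ := 1 - 1 / q with hy
    have hx0 : 0 < x := by positivity
    have hx1 : x ≤ 1 := by
      rw [hx, div_le_one (by positivity)]
      exact one_le_pow₀ (by exact_mod_cast hq1.le)
    have hy0 : 0 ≤ y := by
      rw [hy, sub_nonneg, div_le_one hq0]; exact_mod_cast hq1.le
    -- c(m) q^(N-(L+1)m) = q^N * (if m = 0 then 1 else y x^m)
    have hc : ∀ m ∈ Finset.range (M+1), (cc q m : ℚ) * (q : ℚ) ^ (N - (L+1) * m) = (q : ℚ) ^ N * (if m = 0 then 1 else y * x ^ m) := by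
      intro m hm
      rw [Finset.mem_range] at hm
      have hle : (L+1) * m ≤ N := by
        calc (L+1) * m ≤ (L+1) * M := Nat.mul_le_mul_left _ (by omega)
          _ ≤ N := by omega
      unfold cc
      rcases Nat.eq_zero_or_pos m with rfl | hm0
      · simp
      · rw [if_neg hm0.ne', if_neg hm0.ne']
        have e1 : N = (N - (L+1) * m) + ((L * m) + m) := by
          have : (L+1) * m = L * m + m := by ring
          omega
        have e2 : (q : ℚ) ^ N = (q : ℚ) ^ (N - (L+1) * m) * ((q : ℚ) ^ (L * m) * (q : ℚ) ^ m) := by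
          conv_lhs => rw [e1]
          rw [pow_add, pow_add]
        rw [e2]
        push_cast [Nat.cast_sub hq1.le]
        have e3 : (q : ℚ) ^ m = q * (q : ℚ) ^ (m - 1) := by
          rw [← pow_succ']; congr 1; omega
        rw [hx, hy, e3]
        have e4 : (1 / (q : ℚ) ^ L) ^ m = 1 / (q : ℚ) ^ (L * m) := by rw [div_pow, one_pow, pow_mul]
        rw [e4]
        field_simp
    have h1 : ((∑ m ∈ Finset.range (M + 1), cc q m * KK F L (N - (L+1) * m) : ℕ) : ℚ) ≤
        ∑ m ∈ Finset.range (M+1), ((q : ℚ) ^ N * ((if m = 0 then 1 else y * x ^ m) * (1 - x)) + (if N - (L+1) * m = 0 then (cc q m : ℚ) * x else 0)) := by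
      push_cast
      apply Finset.sum_le_sum
      intro m hm
      calc (cc q m : ℚ) * (KK F L (N - (L+1) * m) : ℚ) ≤ (cc q m : ℚ) * ((q : ℚ) ^ (N - (L+1) * m) * (1 - x) + (if N - (L+1) * m = 0 then x else 0)) := by
            apply mul_le_mul_of_nonneg_left (ih _) (by positivity)
        _ = _ := by
            rw [mul_add, ← mul_assoc, hc m hm]
            split_ifs <;> ring
    refine h1.trans ?_
    rw [Finset.sum_add_distrib, ← Finset.mul_sum, geom_aux]
    -- the last term
    have h2 : ∑ m ∈ Finset.range (M+1), (if N - (L+1) * m = 0 then (cc q m : ℚ) * x else 0) ≤ (q : ℚ) ^ N * (y * x ^ (M+1)) := by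
      rw [Finset.sum_eq_single M]
      · split_ifs with h
        · have hr0 : r = 0 := by omega
          have hM0 : M ≠ 0 := by
            rintro h0; rw [h0, hr0] at hNr; omega
          have h3 := hc M (Finset.mem_range.2 (by omega))
          rw [h, pow_zero, mul_one, if_neg hM0] at h3
          rw [h3, pow_succ]
          apply le_of_eq; ring
        · positivity
      · intro m hm hmM
        rw [Finset.mem_range] at hm
        rw [if_neg]
        intro h
        have : (L+1) * m < (L+1) * M := Nat.mul_lt_mul_of_pos_left (by omega) (by omega)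
        omega
      · intro h; exact absurd (Finset.mem_range.2 (by omega)) h
    have h3 : (q : ℚ) ^ N * ((1 - x) + y * (x - x ^ (M+1))) + (q : ℚ) ^ N * (y * x ^ (M+1)) = (q : ℚ) ^ N * (1 - 1 / (q : ℚ) ^ (L+1)) := by
      rw [hy, hx, pow_succ (q : ℚ) L]
      field_simp
      ring
    rw [← h3]
    linarith

/-- number of all types -/
noncomputable def kGL (F : Type u) [Field F] (N : ℕ) : ℕ := Nat.card (Ty F (fun _ => True) N)

theorem kGL_eq (N : ℕ) : kGL F N = KK F N N := Ty_congr' _ _ _ (fun j h1 h2 => ⟨fun _ => ⟨h1, h2⟩, fun _ => trivial⟩)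

theorem kGL_le [Fintype F] (N : ℕ) (hN : 1 ≤ N) : kGL F N + 1 ≤ Fintype.card F ^ N := by
  have h := KK_bound (F := F) N N
  rw [if_neg (by omega), add_zero, ← kGL_eq] at h
  have hq0 : (0 : ℚ) < Fintype.card F := by
    have : 0 < Fintype.card F := Fintype.card_pos
    exact_mod_cast this
  have h2 : (Fintype.card F : ℚ) ^ N * (1 - 1 / (Fintype.card F : ℚ) ^ N) = (Fintype.card F : ℚ) ^ N - 1 := by
    field_simp
  rw [h2] at h
  have h3 : ((kGL F N + 1 : ℕ) : ℚ) ≤ ((Fintype.card F ^ N : ℕ) : ℚ) := by push_cast; linarith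
  exact_mod_cast h3

theorem card_conj (N : ℕ) : Nat.card (ConjClasses (GL (Fin N) F)) = kGL F N := by
  apply Nat.card_congr
  refine Equiv.ofBijective (fun C => ⟨typ C, typ_adm _, fun _ _ => trivial⟩) ⟨?_, ?_⟩
  · intro C D hCD
    exact typ_inj (congrArg Subtype.val hCD)
  · rintro ⟨T, hT, -⟩
    obtain ⟨g, hg⟩ := exists_of_adm hT
    exact ⟨ConjClasses.mk g, Subtype.ext (typ_mk g hg)⟩

theorem le_kGL [Fintype F] (N : ℕ) (hN : 1 ≤ N) : Fintype.card F ^ N - Fintype.card F ^ (N-1) ≤ kGL F N := by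
  -- injection f ↦ types with all exponents one
  have h1 : Nat.card (PP F N) ≤ kGL F N := by
    haveI : Finite (Ty F (fun _ => True) N) := inferInstance
    have hmk : ∀ f : PP F N, Adm N ((nf f.1).map (fun P => (P, 1))) := by
      intro f
      refine ⟨?_, ?_, ?_⟩
      · intro t ht
        rw [Multiset.mem_map] at ht
        obtain ⟨P, hP, rfl⟩ := ht
        exact ⟨(nf_mem f.2.1 hP).1, (nf_mem f.2.1 hP).2.1, le_rfl⟩
      · rw [size_map_nf f.2.1, one_mul, f.2.2.1]
      · intro t ht
        rw [Multiset.mem_map] at ht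
        obtain ⟨P, hP, rfl⟩ := ht
        exact (X_dvd_iff_mem f.2.1).1 f.2.2.2 P hP
    apply Nat.card_le_card_of_injective (β := Ty F (fun _ => True) N) (fun f : PP F N => (⟨(nf f.1).map (fun P => (P, 1)), hmk f, fun _ _ => trivial⟩ : Ty F (fun _ => True) N))
    · rintro ⟨f, hf⟩ ⟨g, hg⟩ h
      have h1 : (nf f).map (fun P => (P, 1)) = (nf g).map (fun P => (P, 1)) := congrArg Subtype.val h
      have h3 : nf f = nf g := Multiset.map_injective (fun a b hab => congrArg Prod.fst hab) h1
      apply Subtype.ext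
      change f = g
      rw [← nf_prod hf.1, h3, nf_prod hg.1]
  rw [card_PP] at h1
  unfold cc at h1
  rw [if_neg (by omega)] at h1
  obtain ⟨k, rfl⟩ := Nat.exists_eq_add_of_le' hN
  rw [Nat.add_sub_cancel] at h1 ⊢
  rw [pow_succ, mul_comm]
  have : Fintype.card F * Fintype.card F ^ k - Fintype.card F ^ k = (Fintype.card F - 1) * Fintype.card F ^ k := by rw [Nat.sub_mul, one_mul]
  rw [this]; exact h1

end Cfsg.Agent.H15.RC
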