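import Mathlib
import Cfsg.Agent.H15_RC5

set_option autoImplicit false
set_option linter.all false
open Polynomial Module Matrix UniqueFactorizationMonoid

namespace Cfsg.Agent.H15.RC

universe u
variable {F : Type u} [Field F]

theorem card_multiset_le {S : Type*} [Finite S] (N : ℕ) : Nat.card {M : Multiset S // Multiset.card M ≤ N} = Nat.choose (N + Nat.card S) (Nat.card S) := by
  have e : {M : Multiset S // Multiset.card M ≤ N} ≃ Σ k : Fin (N+1), Sym S k :=
    Equiv.ofBijective (fun M => ⟨⟨Multiset.card M.1, Nat.lt_succ_of_le M.2⟩, ⟨M.1, rfl⟩⟩) (by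
      constructor
      · rintro ⟨M, hM⟩ ⟨M', hM'⟩ h
        apply Subtype.ext
        exact congrArg (fun x : (Σ k : Fin (N+1), Sym S k) => x.2.1) h
      · rintro ⟨⟨k, hk⟩, ⟨M, hM⟩⟩
        simp only at hM
        subst hM
        exact ⟨⟨M, Nat.le_of_lt_succ hk⟩, rfl⟩)
  rw [Nat.card_congr e, Nat.card_sigma]
  rw [Finset.sum_congr rfl (fun (k : Fin (N+1)) _ => Sym.natCard_sym_eq_multichoose (α := S) k), ← Finset.sum_range (fun k => Nat.multichoose (Nat.card S) k)]
  exact Nat.sum_range_multichoose N (Nat.card S)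

theorem exists_map_eq {A B : Type*} (f : A → B) (T : Multiset B) (h : ∀ x ∈ T, ∃ a, f a = x) : ∃ M : Multiset A, M.map f = T := by
  induction T using Multiset.induction_on with
  | empty => exact ⟨0, rfl⟩
  | cons x T ih =>
    obtain ⟨M, hM⟩ := ih (fun y hy => h y (Multiset.mem_cons_of_mem hy))
    obtain ⟨a, ha⟩ := h x (Multiset.mem_cons_self _ _)
    exact ⟨a ::ₘ M, by rw [Multiset.map_cons, ha, hM]⟩

section cyc
variable (F) in
/-- irreducible factors of the cyclotomic polynomial -/
def Psi (r : ℕ) : Type u := {P : F[X] // Irreducible P ∧ P.Monic ∧ P ∣ cyclotomic r F}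

theorem Psi_facts [Fintype F] {p q r i t : ℕ} [Fact p.Prime] [CharP F p] (hF : Fintype.card F = q) (hr : r.Prime) (hrp : r ≠ p) (hi : i = orderOf (q : ZMod r)) (ht : t * i = r - 1) :
    Finite (Psi F r) ∧ Nat.card (Psi F r) = t ∧ ∀ P : Psi F r, P.1.natDegree = i := by
  classical
  have hp : p.Prime := Fact.out
  obtain ⟨f, hf⟩ : ∃ f : ℕ, Fintype.card F = p ^ f := by
    obtain ⟨n, h1, h2⟩ := FiniteField.card F p
    exact ⟨n, h2⟩
  have hcop : p.Coprime r := (Nat.coprime_primes hp hr).2 hrp.symm
  have ho : orderOf (ZMod.unitOfCoprime _ (hcop.pow_left f)) = i := by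
    rw [hi, ← orderOf_units, ZMod.coe_unitOfCoprime, ← hF, hf]
  have hi0 : 0 < i := by
    rw [← ho]; exact orderOf_pos _
  have hdeg : ∀ P : Psi F r, P.1.natDegree = i := by
    intro P
    rw [natDegree_of_dvd_cyclotomic_of_irreducible hf hcop P.2.2.2 P.2.1, ho]
  have e : Psi F r ≃ {P // P ∈ (normalizedFactors (cyclotomic r F)).toFinset} :=
    Equiv.subtypeEquivRight (fun P => by
      rw [Multiset.mem_toFinset, mem_normalizedFactors_iff' (cyclotomic_ne_zero r F)]
      constructor
      · rintro ⟨h1, h2, h3⟩; exact ⟨h1, h2.normalize_eq_self, h3⟩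
      · rintro ⟨h1, h2, h3⟩; exact ⟨h1, by rw [← h2]; exact monic_normalize h1.ne_zero, h3⟩)
  haveI : Finite {P // P ∈ (normalizedFactors (cyclotomic r F)).toFinset} := inferInstance
  refine ⟨Finite.of_equiv _ e.symm, ?_, hdeg⟩
  rw [Nat.card_congr e, Nat.card_eq_fintype_card, Fintype.card_coe, normalizedFactors_cyclotomic_card hf hcop, ho, Nat.totient_prime hr, ← ht,
    Nat.mul_div_cancel _ hi0]

theorem main2568 [Fintype F] {p q : ℕ} [Fact p.Prime] [CharP F p] (hF : Fintype.card F = q) (n r i t : ℕ) (hr : r.Prime) (hrp : r ≠ p) (hi : i = orderOf (q : ZMod r)) (ht : t * i = r - 1) :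
    Nat.card {C : ConjClasses (GL (Fin n) F) // ∃ g : GL (Fin n) F, ConjClasses.mk g = C ∧ orderOf g = r} = Nat.choose (n / i + t) t - 1 := by
  classical
  have hp : p.Prime := Fact.out
  obtain ⟨hfin, hcard, hdeg⟩ := Psi_facts (F := F) hF hr hrp hi ht
  haveI := hfin
  have hrF : (r : F) ≠ 0 := by
    rw [Ne, CharP.cast_eq_zero_iff F p]
    intro h
    exact hrp ((Nat.prime_dvd_prime_iff_eq hp hr).1 h).symm
  have hi0 : 0 < i := by
    rcases Nat.eq_zero_or_pos i with h | h
    · rw [h, mul_zero] at ht; have := hr.two_le; omega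
    · exact h
  have hcyc : cyclotomic r F * (X - 1) = X ^ r - 1 := by
    haveI := Fact.mk hr
    exact cyclotomic_prime_mul_X_sub_one F r
  have hsq : Squarefree (X ^ r - 1 : F[X]) := (X_pow_sub_one_separable_iff.2 hrF).squarefree
  have hX1 : ¬ (X - 1 : F[X]) ∣ cyclotomic r F := by
    intro h
    have : (X - 1) * (X - 1) ∣ (X ^ r - 1 : F[X]) := by rw [← hcyc]; exact mul_dvd_mul_right h _
    exact irr_X1.not_isUnit (hsq _ this)
  have hdiv : ∀ P : F[X], Irreducible P → P.Monic → ∀ j, 1 ≤ j → (P ^ j ∣ X ^ r - 1 ↔ j = 1 ∧ (P = X - 1 ∨ P ∣ cyclotomic r F)) := by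
    intro P hP hPm j hj
    constructor
    · intro h
      have h1 : P ∣ X ^ r - 1 := (dvd_pow_self P (by omega)).trans h
      refine ⟨?_, ?_⟩
      · by_contra hj1
        have : P * P ∣ X ^ r - 1 := by
          rw [← pow_two]; exact (pow_dvd_pow P (by omega)).trans h
        exact hP.not_isUnit (hsq _ this)
      · rw [← hcyc] at h1
        rcases hP.prime.dvd_or_dvd h1 with h2 | h2
        · exact Or.inr h2
        · exact Or.inl (eq_of_monic_of_associated hPm monic_X1 (hP.associated_of_dvd irr_X1 h2))
    · rintro ⟨rfl, h⟩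
      rw [pow_one, ← hcyc]
      rcases h with rfl | h
      · exact dvd_mul_left _ _
      · exact h.mul_right _
  have hcX : ∀ P : F[X], P ∣ cyclotomic r F → P ≠ X := by
    rintro P h rfl
    have h1 : (X : F[X]) ∣ X ^ r - 1 := by rw [← hcyc]; exact h.mul_right _
    rw [X_dvd_iff] at h1
    simp [hr.ne_zero.symm] at h1
  have e1 : Nat.card {C : ConjClasses (GL (Fin n) F) // ∃ g : GL (Fin n) F, ConjClasses.mk g = C ∧ orderOf g = r} =
      Nat.card {C : ConjClasses (GL (Fin n) F) // ∃ g : GL (Fin n) F, orderOf g = r ∧ ConjClasses.mk g = C} := by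
    simp only [and_comm]
  rw [e1, card_classes (P := fun g => orderOf g = r)
    (P' := fun T => (∀ t ∈ T, t.2 = 1 ∧ (t.1 = X - 1 ∨ t.1 ∣ cyclotomic r F)) ∧ ¬ (∀ t ∈ T, t.1 = X - 1))]
  · -- bijection with multisets
    have e2 : Nat.card {T : Multiset (F[X] × ℕ) // Adm n T ∧ ((∀ t ∈ T, t.2 = 1 ∧ (t.1 = X - 1 ∨ t.1 ∣ cyclotomic r F)) ∧ ¬ (∀ t ∈ T, t.1 = X - 1))} =
        Nat.card {M : {M : Multiset (Psi F r) // Multiset.card M ≤ n / i} // M ≠ ⟨0, by simp⟩} := by
      symm
      apply Nat.card_congr
      have hmk : ∀ M : Multiset (Psi F r), Multiset.card M ≤ n / i → Adm n (M.map (fun P : Psi F r => (P.1, 1)) + Multiset.replicate (n - i * Multiset.card M) ((X - 1 : F[X]), 1)) := by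
        intro M hM
        have hle : i * Multiset.card M ≤ n := by
          calc i * Multiset.card M ≤ i * (n / i) := Nat.mul_le_mul_left _ hM
            _ ≤ n := Nat.mul_div_le n i
        refine ⟨?_, ?_, ?_⟩
        · intro x hx
          rcases Multiset.mem_add.1 hx with hx | hx
          · rw [Multiset.mem_map] at hx
            obtain ⟨P, -, rfl⟩ := hx
            exact ⟨P.2.1, P.2.2.1, le_rfl⟩
          · rw [Multiset.mem_replicate] at hx
            rw [hx.2]; exact ⟨irr_X1, monic_X1, le_rfl⟩
        · rw [size_add]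
          unfold size
          rw [Multiset.map_map, Multiset.map_replicate, Multiset.sum_replicate, deg_X1]
          have h1 : M.map ((fun t : F[X] × ℕ => t.2 * t.1.natDegree) ∘ fun P : Psi F r => (P.1, 1)) = M.map (fun _ => i) := by
            apply Multiset.map_congr rfl
            intro P _
            simp only [Function.comp_apply, one_mul]
            exact hdeg P
          rw [h1, Multiset.map_const', Multiset.sum_replicate, smul_eq_mul, smul_eq_mul, mul_comm]
          omega
        · intro x hx
          rcases Multiset.mem_add.1 hx with hx | hx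
          · rw [Multiset.mem_map] at hx
            obtain ⟨P, -, rfl⟩ := hx
            exact hcX _ P.2.2.2
          · rw [Multiset.mem_replicate] at hx
            rw [hx.2]; exact X1_ne_X
      have hfil : ∀ M : Multiset (Psi F r), (M.map (fun P : Psi F r => (P.1, 1)) + Multiset.replicate (n - i * Multiset.card M) ((X - 1 : F[X]), 1)).filter (fun t => ¬ t.1 = X - 1) =
          M.map (fun P : Psi F r => (P.1, 1)) := by
        intro M
        rw [Multiset.filter_add, Multiset.filter_eq_self.2, Multiset.filter_eq_nil.2, add_zero]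
        · intro x hx
          rw [Multiset.mem_replicate] at hx
          rw [hx.2]; simp
        · intro x hx
          rw [Multiset.mem_map] at hx
          obtain ⟨P, -, rfl⟩ := hx
          rintro (h : P.1 = X - 1)
          exact hX1 (h ▸ P.2.2.2)
      refine Equiv.ofBijective (fun M => ⟨M.1.1.map (fun P : Psi F r => (P.1, 1)) + Multiset.replicate (n - i * Multiset.card M.1.1) ((X - 1 : F[X]), 1), hmk M.1.1 M.1.2, ?_, ?_⟩) ⟨?_, ?_⟩
      · intro x hx
        rcases Multiset.mem_add.1 hx with hx | hx
        · rw [Multiset.mem_map] at hx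
          obtain ⟨P, -, rfl⟩ := hx
          exact ⟨rfl, Or.inr P.2.2.2⟩
        · rw [Multiset.mem_replicate] at hx
          rw [hx.2]; exact ⟨rfl, Or.inl rfl⟩
      · intro h
        apply M.2
        apply Subtype.ext
        apply Multiset.eq_zero_of_forall_notMem
        intro P hP
        have := h (P.1, 1) (Multiset.mem_add.2 (Or.inl (Multiset.mem_map_of_mem _ hP)))
        exact hX1 (this ▸ P.2.2.2)
      · rintro ⟨⟨M, hM⟩, hM0⟩ ⟨⟨M', hM'⟩, hM0'⟩ h
        have h1 : M.map (fun P : Psi F r => (P.1, 1)) + Multiset.replicate (n - i * Multiset.card M) ((X - 1 : F[X]), 1) =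
          M'.map (fun P : Psi F r => (P.1, 1)) + Multiset.replicate (n - i * Multiset.card M') ((X - 1 : F[X]), 1) := congrArg Subtype.val h
        have h2 : M.map (fun P : Psi F r => (P.1, 1)) = M'.map (fun P : Psi F r => (P.1, 1)) := by rw [← hfil M, h1, hfil M']
        have h3 : M = M' := Multiset.map_injective (fun a b hab => Subtype.ext (congrArg Prod.fst hab)) h2
        subst h3; rfl
      · rintro ⟨T, hT, h1, h2⟩
        obtain ⟨M, hM⟩ : ∃ M : Multiset (Psi F r), M.map (fun P : Psi F r => (P.1, 1)) = T.filter (fun t => ¬ t.1 = X - 1) := by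
          have hex : ∀ x ∈ T.filter (fun t => ¬ t.1 = X - 1), ∃ P : Psi F r, (P.1, 1) = x := by
            intro x hx
            rw [Multiset.mem_filter] at hx
            have h3 := h1 x hx.1
            refine ⟨⟨x.1, (hT.1 x hx.1).1, (hT.1 x hx.1).2.1, h3.2.resolve_left hx.2⟩, ?_⟩
            exact Prod.ext rfl h3.1.symm
          exact exists_map_eq _ _ hex
        have hrep : T.filter (fun t => t.1 = X - 1) = Multiset.replicate (Multiset.card (T.filter (fun t => t.1 = X - 1))) ((X - 1 : F[X]), 1) := by
          rw [Multiset.eq_replicate_card]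
          intro x hx
          rw [Multiset.mem_filter] at hx
          exact Prod.ext hx.2 (h1 x hx.1).1
        have hsum : M.map (fun P : Psi F r => (P.1, 1)) + Multiset.replicate (Multiset.card (T.filter (fun t => t.1 = X - 1))) ((X - 1 : F[X]), 1) = T := by
          rw [hM, ← hrep, add_comm]; exact Multiset.filter_add_not _ _
        have hsz : i * Multiset.card M + Multiset.card (T.filter (fun t => t.1 = X - 1)) = n := by
          have h3 := hT.2.1
          rw [← hsum, size_add] at h3
          unfold size at h3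
          rw [Multiset.map_map, Multiset.map_replicate, Multiset.sum_replicate, deg_X1] at h3
          have h4 : M.map ((fun t : F[X] × ℕ => t.2 * t.1.natDegree) ∘ fun P : Psi F r => (P.1, 1)) = M.map (fun _ => i) := by
            apply Multiset.map_congr rfl
            intro P _
            simp only [Function.comp_apply, one_mul]
            exact hdeg P
          rw [h4, Multiset.map_const', Multiset.sum_replicate, smul_eq_mul, smul_eq_mul, mul_one, mul_one, mul_comm] at h3
          exact h3
        have hMn : Multiset.card M ≤ n / i := by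
          rw [Nat.le_div_iff_mul_le hi0, mul_comm]; omega
        refine ⟨⟨⟨M, hMn⟩, ?_⟩, ?_⟩
        · intro h0
          have h0' : M = 0 := congrArg Subtype.val h0
          apply h2
          intro x hx
          by_contra hx1
          have : x ∈ T.filter (fun t => ¬ t.1 = X - 1) := Multiset.mem_filter.2 ⟨hx, hx1⟩
          rw [← hM, h0'] at this
          simp at this
        · apply Subtype.ext
          change M.map (fun P : Psi F r => (P.1, 1)) + Multiset.replicate (n - i * Multiset.card M) ((X - 1 : F[X]), 1) = T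
          have : n - i * Multiset.card M = Multiset.card (T.filter (fun t => t.1 = X - 1)) := by omega
          rw [this]; exact hsum
    rw [e2]
    haveI : Finite {M : Multiset (Psi F r) // Multiset.card M ≤ n / i} := by
      apply Nat.finite_of_card_ne_zero
      rw [card_multiset_le]
      exact (Nat.choose_pos (Nat.le_add_left _ _)).ne'
    have e3 : Nat.card {M : {M : Multiset (Psi F r) // Multiset.card M ≤ n / i} // M ≠ ⟨0, by simp⟩} = Nat.card {M : Multiset (Psi F r) // Multiset.card M ≤ n / i} - 1 := by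
      haveI := Fintype.ofFinite {M : Multiset (Psi F r) // Multiset.card M ≤ n / i}
      rw [Nat.card_eq_fintype_card, Nat.card_eq_fintype_card]
      rw [Fintype.card_subtype_compl, Fintype.card_subtype_eq]
    rw [e3, card_multiset_le, hcard]
  · intro g T hT
    have hv := hT.valid
    have h1 : g ^ r = 1 ↔ ∀ t ∈ T, t.2 = 1 ∧ (t.1 = X - 1 ∨ t.1 ∣ cyclotomic r F) := by
      have h3 := MT_aeval hT (X ^ r - 1)
      rw [map_sub, map_pow, aeval_X, map_one, sub_eq_zero] at h3
      have h4 : g ^ r = 1 ↔ (g : Matrix (Fin n) (Fin n) F) ^ r = 1 := by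
        rw [Units.ext_iff]; rfl
      rw [h4, h3]
      constructor
      · intro h x hx; exact (hdiv x.1 (hv x hx).1 (hv x hx).2.1 x.2 (hv x hx).2.2).1 (h x hx)
      · intro h x hx; exact (hdiv x.1 (hv x hx).1 (hv x hx).2.1 x.2 (hv x hx).2.2).2 (h x hx)
    have h2 : g = 1 ↔ ∀ t ∈ T, t.1 = X - 1 ∧ t.2 ≤ 1 := by
      rw [← MT_unip hT, pow_one, sub_eq_zero, Units.ext_iff]; rfl
    have h3 : orderOf g = r ↔ g ^ r = 1 ∧ ¬ g = 1 := by
      constructor
      · intro h
        refine ⟨h ▸ pow_orderOf_eq_one g, ?_⟩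
        rintro rfl
        rw [orderOf_one] at h
        exact hr.one_lt.ne h
      · rintro ⟨h4, h5⟩
        haveI := Fact.mk hr
        exact orderOf_eq_prime h4 h5
    rw [h3, h1, h2]
    constructor
    · rintro ⟨h4, h5⟩
      exact ⟨h4, fun h6 => h5 (fun t ht => ⟨h6 t ht, (h4 t ht).1.le⟩)⟩
    · rintro ⟨h4, h5⟩
      exact ⟨h4, fun h6 => h5 (fun t ht => (h6 t ht).1)⟩

end cyc

end Cfsg.Agent.H15.RC
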