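import Mathlib
import Cfsg.Agent.H15_RC6

set_option autoImplicit false
set_option linter.all false
open Polynomial Module Matrix

namespace Cfsg.Agent.H15.RC

universe u
variable {F : Type u} [Field F]

theorem aeval_reflect {R : Type*} [Ring R] [Algebra F R] {M B : R} (h : B * M = 1) (f : F[X]) (N : ℕ) (hN : f.natDegree ≤ N) :
    aeval M (reflect N f) = aeval B f * M ^ N := by
  refine Polynomial.induction_with_natDegree_le (fun f : F[X] => aeval M (reflect N f) = aeval B f * M ^ N) N ?_ ?_ ?_ f hN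
  · simp
  · intro n r hr hn
    rw [reflect_C_mul_X_pow, revAt_le hn, map_mul, map_mul, aeval_C, aeval_C, map_pow, map_pow, aeval_X, aeval_X, mul_assoc]
    congr 1
    obtain ⟨k, rfl⟩ := Nat.exists_eq_add_of_le hn
    rw [Nat.add_sub_cancel_left, pow_add, ← mul_assoc]
    have : ∀ m : ℕ, B ^ m * M ^ m = 1 := by
      intro m
      induction m with
      | zero => simp
      | succ m ih => rw [pow_succ', pow_succ, mul_assoc, ← mul_assoc (B ^ m), ih, one_mul, h]
    rw [this, one_mul]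
  · intro f g hfg hg ihf ihg
    rw [reflect_add, map_add, map_add, add_mul, ihf, ihg]

section
variable {n : ℕ}

theorem rank_mapσ (σ : F ≃+* F) (A : Matrix (Fin n) (Fin n) F) : (A.map σ).rank = A.rank := by
  let j0 : (Fin n → F) ≃+ (Fin n → F) := AddEquiv.piCongrRight (fun _ => σ.toAddEquiv)
  have hj : ∀ v, (A.map σ).mulVec (j0 v) = j0 (A.mulVec v) := by
    intro v
    funext i
    change ∑ k, σ (A i k) * σ (v k) = σ (∑ k, A i k * v k)
    rw [map_sum]
    exact Finset.sum_congr rfl (fun k _ => (map_mul σ _ _).symm)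
  unfold Matrix.rank
  let j : LinearMap.range (A.map σ).mulVecLin ≃+ LinearMap.range A.mulVecLin :=
    { toFun := fun x => ⟨j0.symm x.1, by
        obtain ⟨v, hv⟩ := x.2
        refine ⟨j0.symm v, ?_⟩
        rw [Matrix.mulVecLin_apply] at hv ⊢
        rw [← hv]
        apply j0.injective
        rw [← hj, j0.apply_symm_apply, j0.apply_symm_apply]⟩
      invFun := fun x => ⟨j0 x.1, by
        obtain ⟨v, hv⟩ := x.2
        refine ⟨j0 v, ?_⟩
        rw [Matrix.mulVecLin_apply] at hv ⊢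
        rw [← hv, hj]⟩
      left_inv := fun x => Subtype.ext (j0.apply_symm_apply _)
      right_inv := fun x => Subtype.ext (j0.symm_apply_apply _)
      map_add' := fun x y => Subtype.ext (map_add j0.symm _ _) }
  unfold Module.finrank
  congr 1
  refine rank_eq_of_equiv_equiv σ.symm j σ.symm.bijective ?_
  intro r m
  apply Subtype.ext
  funext i
  change σ.symm (r * m.1 i) = σ.symm r * σ.symm (m.1 i)
  exact map_mul _ _ _

theorem aeval_mapσ (σ : F ≃+* F) (A : Matrix (Fin n) (Fin n) F) (f : F[X]) : aeval (A.map σ) (f.map (σ : F →+* F)) = (aeval A f).map σ := by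
  have e : ∀ M : Matrix (Fin n) (Fin n) F, M.map σ = (RingHom.mapMatrix (σ : F →+* F)) M := fun M => rfl
  induction f using Polynomial.induction_on' with
  | add f g hf hg =>
    rw [Polynomial.map_add, map_add, map_add, hf, hg, e, e, e, map_add]
  | monomial k c =>
    rw [Polynomial.map_monomial, aeval_monomial, aeval_monomial, e, e, map_mul, map_pow]
    congr 1
    ext i j
    change algebraMap F (Matrix (Fin n) (Fin n) F) (σ c) i j = σ (algebraMap F (Matrix (Fin n) (Fin n) F) c i j)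
    rw [Matrix.algebraMap_matrix_apply, Matrix.algebraMap_matrix_apply]
    split_ifs
    · rfl
    · rw [map_zero]

/-- sigma-inverse-transpose -/
noncomputable def sit (σ : F ≃+* F) (g : GL (Fin n) F) : Matrix (Fin n) (Fin n) F := ((g : Matrix (Fin n) (Fin n) F).map σ)ᵀ⁻¹

theorem isUnit_mapT (σ : F ≃+* F) (g : GL (Fin n) F) : IsUnit ((g : Matrix (Fin n) (Fin n) F).map σ)ᵀ := by
  rw [Matrix.isUnit_transpose]
  have : (g : Matrix (Fin n) (Fin n) F).map σ = (RingHom.mapMatrix (σ : F →+* F)) (g : Matrix (Fin n) (Fin n) F) := rfl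
  rw [this]
  exact g.isUnit.map _

theorem rank_sit (σ : F ≃+* F) (g : GL (Fin n) F) (f : F[X]) (N : ℕ) (hN : f.natDegree ≤ N) :
    (aeval (sit σ g) f).rank = (aeval (g : Matrix (Fin n) (Fin n) F) ((reflect N f).map (σ.symm : F →+* F))).rank := by
  have hu := isUnit_mapT σ g
  have h1 : sit σ g * ((g : Matrix (Fin n) (Fin n) F).map σ)ᵀ = 1 := Matrix.nonsing_inv_mul _ ((Matrix.isUnit_iff_isUnit_det _).1 hu)
  have h2 := aeval_reflect (F := F) h1 f N hN
  have h3 : (aeval (sit σ g) f).rank = (aeval ((g : Matrix (Fin n) (Fin n) F).map σ)ᵀ (reflect N f)).rank := by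
    rw [h2, Matrix.rank_mul_eq_left_of_isUnit_det]
    exact (Matrix.isUnit_iff_isUnit_det _).1 (hu.pow N)
  rw [h3, aeval_transpose, Matrix.rank_transpose]
  have h4 : reflect N f = ((reflect N f).map (σ.symm : F →+* F)).map (σ : F →+* F) := by
    rw [Polynomial.map_map]
    have : (σ : F →+* F).comp (σ.symm : F →+* F) = RingHom.id F := by ext x; simp
    rw [this, Polynomial.map_id]
  conv_lhs => rw [h4]
  rw [aeval_mapσ, rank_mapσ]

end

section dual

theorem natDegree_rev {P : F[X]} (h : P.coeff 0 ≠ 0) : P.reverse.natDegree = P.natDegree := by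
  rw [reverse_natDegree, natTrailingDegree_eq_zero.2 (Or.inr h), Nat.sub_zero]

theorem rev_rev {P : F[X]} (h : P.coeff 0 ≠ 0) : P.reverse.reverse = P := by
  have h1 := natDegree_rev h
  change reflect P.reverse.natDegree (reflect P.natDegree P) = P
  rw [h1, reflect_reflect]

theorem coeff0_rev (P : F[X]) (h : P ≠ 0) : P.reverse.coeff 0 ≠ 0 := by
  rw [coeff_zero_reverse]; exact leadingCoeff_ne_zero.2 h

theorem irr_rev {P : F[X]} (hP : Irreducible P) (h : P.coeff 0 ≠ 0) : Irreducible P.reverse := by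
  constructor
  · intro hu
    have h1 := natDegree_eq_zero_of_isUnit hu
    rw [natDegree_rev h] at h1
    exact (hP.natDegree_pos).ne' h1
  · intro a b hab
    have hne : a * b ≠ 0 := by rw [← hab]; exact (mt reverse_eq_zero.1 hP.ne_zero)
    have h0 : (a * b).coeff 0 ≠ 0 := by rw [← hab]; exact coeff0_rev P hP.ne_zero
    rw [mul_coeff_zero] at h0
    have ha := left_ne_zero_of_mul h0
    have hb := right_ne_zero_of_mul h0
    have h1 : P = a.reverse * b.reverse := by
      rw [← reverse_mul_of_domain, ← hab, rev_rev h]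
    have key : ∀ c : F[X], c.coeff 0 ≠ 0 → IsUnit c.reverse → IsUnit c := by
      intro c hc hu
      have h2 := natDegree_eq_zero_of_isUnit hu
      rw [natDegree_rev hc] at h2
      rw [eq_C_of_natDegree_eq_zero h2]
      exact isUnit_C.2 (isUnit_iff_ne_zero.2 hc)
    rcases hP.isUnit_or_isUnit h1 with h2 | h2
    · exact Or.inl (key a ha h2)
    · exact Or.inr (key b hb h2)

/-- the dual polynomial -/
noncomputable def dl (σ : F ≃+* F) (P : F[X]) : F[X] := C (((P.map (σ : F →+* F)).coeff 0)⁻¹) * (P.map (σ : F →+* F)).reverse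

theorem coeff0_ne {P : F[X]} (hP : Irreducible P) (hm : P.Monic) (hX : P ≠ X) : P.coeff 0 ≠ 0 := by
  intro h
  have h1 : (X : F[X]) ∣ P := X_dvd_iff.2 h
  exact hX (eq_of_monic_of_associated hm monic_X ((irreducible_X.associated_of_dvd hP h1).symm))

variable {σ : F ≃+* F}

theorem coeff0_map {P : F[X]} (h : P.coeff 0 ≠ 0) : (P.map (σ : F →+* F)).coeff 0 ≠ 0 := by
  rw [coeff_map]; exact (map_ne_zero (σ : F →+* F)).2 h

theorem irr_map {P : F[X]} (hP : Irreducible P) : Irreducible (P.map (σ : F →+* F)) :=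
  (MulEquiv.irreducible_iff (Polynomial.mapEquiv σ)).2 hP

theorem dl_assoc {P : F[X]} (h : P.coeff 0 ≠ 0) : Associated (P.map (σ : F →+* F)).reverse (dl σ P) := by
  unfold dl
  rw [mul_comm]
  exact ⟨(isUnit_C.2 (isUnit_iff_ne_zero.2 (inv_ne_zero (coeff0_map (σ := σ) h)))).unit, rfl⟩

theorem dl_deg {P : F[X]} (h : P.coeff 0 ≠ 0) : (dl σ P).natDegree = P.natDegree := by
  unfold dl
  rw [natDegree_C_mul (inv_ne_zero (coeff0_map (σ := σ) h)), natDegree_rev (coeff0_map h)]
  exact natDegree_map_eq_of_injective (σ : F →+* F).injective _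

theorem dl_irr {P : F[X]} (hP : Irreducible P) (h : P.coeff 0 ≠ 0) : Irreducible (dl σ P) :=
  (dl_assoc h).irreducible (irr_rev (irr_map hP) (coeff0_map h))

theorem dl_monic {P : F[X]} (h : P.coeff 0 ≠ 0) : (dl σ P).Monic := by
  have h1 := coeff0_map (σ := σ) h
  unfold dl Monic
  rw [leadingCoeff_mul, leadingCoeff_C, reverse_leadingCoeff, trailingCoeff, natTrailingDegree_eq_zero.2 (Or.inr h1), inv_mul_cancel₀ h1]

theorem dl_coeff0 {P : F[X]} (h : P.coeff 0 ≠ 0) (hm : P.Monic) : (dl σ P).coeff 0 = ((P.map (σ : F →+* F)).coeff 0)⁻¹ := by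
  unfold dl
  rw [coeff_C_mul, coeff_zero_reverse, (hm.map (σ : F →+* F)).leadingCoeff, mul_one]

theorem dl_coeff0_ne {P : F[X]} (h : P.coeff 0 ≠ 0) (hm : P.Monic) : (dl σ P).coeff 0 ≠ 0 := by
  rw [dl_coeff0 h hm]; exact inv_ne_zero (coeff0_map h)

theorem dl_ne_X {P : F[X]} (h : P.coeff 0 ≠ 0) (hm : P.Monic) : dl σ P ≠ X := by
  intro h1
  apply dl_coeff0_ne (σ := σ) h hm
  rw [h1, coeff_X_zero]

theorem rev_C_mul (c : F) (P : F[X]) : (C c * P).reverse = C c * P.reverse := by
  rw [reverse_mul_of_domain, reverse_C]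

theorem rev_map (P : F[X]) : (P.map (σ : F →+* F)).reverse = P.reverse.map (σ : F →+* F) := by
  change reflect (P.map (σ : F →+* F)).natDegree _ = (reflect P.natDegree P).map _
  rw [natDegree_map_eq_of_injective (σ : F →+* F).injective, reflect_map]

theorem map_map_σ (hσ : ∀ x, σ (σ x) = x) (P : F[X]) : (P.map (σ : F →+* F)).map (σ : F →+* F) = P := by
  rw [Polynomial.map_map]
  have : (σ : F →+* F).comp (σ : F →+* F) = RingHom.id F := by ext x; exact hσ x
  rw [this, Polynomial.map_id]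

theorem dl_dl (hσ : ∀ x, σ (σ x) = x) {P : F[X]} (h : P.coeff 0 ≠ 0) (hm : P.Monic) : dl σ (dl σ P) = P := by
  have h1 := coeff0_map (σ := σ) h
  apply eq_of_monic_of_associated (dl_monic (dl_coeff0_ne h hm)) hm
  refine (dl_assoc (dl_coeff0_ne h hm)).symm.trans ?_
  unfold dl
  rw [Polynomial.map_mul, Polynomial.map_C, rev_C_mul, rev_map, rev_map, rev_map, map_map_σ hσ, rev_rev h]
  refine (associated_unit_mul_left _ _ ?_)
  exact isUnit_C.2 (isUnit_iff_ne_zero.2 ((map_ne_zero (σ : F →+* F)).2 (inv_ne_zero h1)))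

theorem rev_pow (P : F[X]) (k : ℕ) : (P ^ k).reverse = P.reverse ^ k := by
  induction k with
  | zero => rw [pow_zero, pow_zero, ← C_1, reverse_C]
  | succ k ih => rw [pow_succ, reverse_mul_of_domain, ih, pow_succ]

theorem rank_assoc {n : ℕ} (A : Matrix (Fin n) (Fin n) F) {f g : F[X]} (h : Associated f g) : (aeval A f).rank = (aeval A g).rank := by
  obtain ⟨u, rfl⟩ := h
  rw [map_mul, Matrix.rank_mul_eq_left_of_isUnit_det]
  exact (Matrix.isUnit_iff_isUnit_det _).1 (u.isUnit.map _)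

theorem rank_sit_pow (hσ : ∀ x, σ (σ x) = x) {n : ℕ} (g : GL (Fin n) F) {P : F[X]} (h : P.coeff 0 ≠ 0) (k : ℕ) :
    (aeval (sit σ g) (P ^ k)).rank = (aeval (g : Matrix (Fin n) (Fin n) F) ((dl σ P) ^ k)).rank := by
  rw [rank_sit σ g (P ^ k) _ le_rfl]
  apply rank_assoc
  have hs : (σ.symm : F →+* F) = (σ : F →+* F) := by
    ext x
    change σ.symm x = σ x
    rw [RingEquiv.symm_apply_eq, hσ]
  rw [hs]
  change Associated ((P ^ k).reverse.map (σ : F →+* F)) _
  rw [rev_pow, Polynomial.map_pow, ← rev_map]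
  exact (dl_assoc h).pow_pow

end dual

open Classical in
theorem count_eq {V : Type*} [AddCommGroup V] [Module F V] [Module.Finite F V] {a : Module.End F V}
    {W : Type*} [AddCommGroup W] [Module F W] [Module.Finite F W] {b : Module.End F W} {T T' : Multiset (F[X] × ℕ)} (h : HasType a T) (h' : HasType b T')
    {P P' : F[X]} (hP : Irreducible P) (hPm : P.Monic) (hP' : Irreducible P') (hPm' : P'.Monic) (hd : P.natDegree = P'.natDegree)
    (hrk : ∀ k, rk a (P ^ k) = rk b (P' ^ k)) (i : ℕ) : Multiset.count (P, i) T = Multiset.count (P', i) T' := by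
  obtain ⟨k, p, e, D, hT⟩ := h
  obtain ⟨k', r, s, D', hT'⟩ := h'
  rw [hT, hT', count_univ_map, count_univ_map, Nat.card_eq_fintype_card, Nat.card_eq_fintype_card, Fintype.card_subtype, Fintype.card_subtype]
  simp only [Prod.mk.injEq]
  have hd0 : 0 < P.natDegree := hP.natDegree_pos
  have hN : ∀ i, (Finset.univ.filter (fun j => p j = P ∧ i < e j)).card = (Finset.univ.filter (fun j => r j = P' ∧ i < s j)).card := by
    intro i
    have h1 := D.rk_step hP hPm i
    have h2 := D'.rk_step hP' hPm' i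
    rw [hrk, hrk, h2, ← hd] at h1
    exact (Nat.eq_of_mul_eq_mul_left hd0 (Nat.add_left_cancel h1)).symm
  rcases i with _ | i
  · have e1 : (Finset.univ.filter (fun j => p j = P ∧ e j = 0)) = ∅ := by
      rw [Finset.filter_eq_empty_iff]; rintro j - ⟨_, h2⟩; have := D.pos j; omega
    have e2 : (Finset.univ.filter (fun j => r j = P' ∧ s j = 0)) = ∅ := by
      rw [Finset.filter_eq_empty_iff]; rintro j - ⟨_, h2⟩; have := D'.pos j; omega
    rw [e1, e2]; rfl
  · have h1 := D.cnt_step P i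
    have h2 := D'.cnt_step P' i
    rw [hN, hN, h2] at h1
    omega

/-- the dual of a type -/
noncomputable def dT (σ : F ≃+* F) (T : Multiset (F[X] × ℕ)) : Multiset (F[X] × ℕ) := T.map (fun t => (dl σ t.1, t.2))

theorem dT_adm {σ : F ≃+* F} {n : ℕ} {T : Multiset (F[X] × ℕ)} (h : Adm n T) : Adm n (dT σ T) := by
  have h0 : ∀ t ∈ T, t.1.coeff 0 ≠ 0 := fun t ht => coeff0_ne (h.1 t ht).1 (h.1 t ht).2.1 (h.2.2 t ht)
  refine ⟨?_, ?_, ?_⟩
  · intro t ht
    unfold dT at ht
    rw [Multiset.mem_map] at ht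
    obtain ⟨s, hs, rfl⟩ := ht
    exact ⟨dl_irr (h.1 s hs).1 (h0 s hs), dl_monic (h0 s hs), (h.1 s hs).2.2⟩
  · rw [← h.2.1]
    unfold size dT
    rw [Multiset.map_map]
    congr 1
    apply Multiset.map_congr rfl
    intro s hs
    change s.2 * (dl σ s.1).natDegree = _
    rw [dl_deg (h0 s hs)]
  · intro t ht
    unfold dT at ht
    rw [Multiset.mem_map] at ht
    obtain ⟨s, hs, rfl⟩ := ht
    exact dl_ne_X (h0 s hs) (h.1 s hs).2.1

theorem dT_dT {σ : F ≃+* F} (hσ : ∀ x, σ (σ x) = x) {n : ℕ} {T : Multiset (F[X] × ℕ)} (h : Adm n T) : dT σ (dT σ T) = T := by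
  unfold dT
  rw [Multiset.map_map]
  conv_rhs => rw [← Multiset.map_id T]
  apply Multiset.map_congr rfl
  intro t ht
  simp only [Function.comp_apply, id]
  rw [dl_dl hσ (coeff0_ne (h.1 t ht).1 (h.1 t ht).2.1 (h.2.2 t ht)) (h.1 t ht).2.1]

theorem MT_sit {σ : F ≃+* F} (hσ : ∀ x, σ (σ x) = x) {n : ℕ} (g : GL (Fin n) F) {T : Multiset (F[X] × ℕ)} (hg : MT (g : Matrix (Fin n) (Fin n) F) T) :
    MT (sit σ g) (dT σ T) := by
  classical
  have hadm : Adm n T := by
    have := typ_adm (ConjClasses.mk g)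
    rwa [typ_mk g hg] at this
  obtain ⟨T', hT'⟩ := exists_type (Matrix.toLin' (sit σ g) : Module.End F (Fin n → F))
  have hadm' : Adm n T' := by
    obtain ⟨k, hk⟩ : ∃ k : GL (Fin n) F, (k : Matrix (Fin n) (Fin n) F) = sit σ g := by
      have h1 : IsUnit (sit σ g) := by
        unfold sit
        exact (Matrix.isUnit_nonsing_inv_iff).2 (isUnit_mapT σ g)
      exact ⟨h1.unit, rfl⟩
    rw [← hk] at hT'
    have := typ_adm (ConjClasses.mk k)
    rwa [typ_mk k hT'] at this
  have key : T' = dT σ T := by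
    ext ⟨P, i⟩
    by_cases hP : Irreducible P ∧ P.Monic ∧ P ≠ X
    · obtain ⟨h1, h2, h3⟩ := hP
      have h0 := coeff0_ne h1 h2 h3
      have e1 := count_eq hT' hg h1 h2 (dl_irr (σ := σ) h1 h0) (dl_monic h0) (dl_deg h0).symm (fun k => by
        rw [rk_toLin', rk_toLin']; exact rank_sit_pow hσ g h0 k) i
      rw [e1]
      unfold dT
      rw [Multiset.count_map, Multiset.count_eq_card_filter_eq]
      congr 1
      apply Multiset.filter_congr
      intro t ht
      have h4 := coeff0_ne (hadm.1 t ht).1 (hadm.1 t ht).2.1 (hadm.2.2 t ht)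
      constructor
      · rintro rfl
        rw [dl_dl hσ h0 h2]
      · intro h5
        rw [Prod.mk.injEq] at h5
        rw [h5.1, h5.2, dl_dl hσ h4 (hadm.1 t ht).2.1]
    · rw [Multiset.count_eq_zero.2, Multiset.count_eq_zero.2]
      · intro h1
        have h2 := dT_adm (σ := σ) hadm
        exact hP ⟨(h2.1 _ h1).1, (h2.1 _ h1).2.1, h2.2.2 _ h1⟩
      · intro h1
        exact hP ⟨(hadm'.1 _ h1).1, (hadm'.1 _ h1).2.1, hadm'.2.2 _ h1⟩
  rw [← key]
  exact hT'

end Cfsg.Agent.H15.RC
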