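import Cfsg.Agent.H16_CjU
import Cfsg.Statements.S2588
-- import your own Cfsg.Agent.* helpers here

set_option autoImplicit false
open Cfsg

namespace Cfsg.Agent.S2588

/-- An invertible matrix A over the field with q² elements is conjugate in GL_n(q²) to an element of the general unitary group GU_n(q) (isometries of the Hermitian form Σ u_i v_i^q) if and only if A is similar to the inverse transpose of its entrywise q-th power (A ~ A^(−qT), the image of A under the map sending a matrix to the inverse transpose of its entrywise q-th power — inverse transpose composed with the field automorphism — whose fixed points form GU_n(q)). -/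
theorem result {K : Type*} [Field K] [Fintype K] {q n : ℕ} (hK : Fintype.card K = q ^ 2) (A : GL (Fin n) K) : (∃ B : ↥(Cfsg.GU n K q), IsConj A (B : GL (Fin n) K)) ↔ IsConj (A : Matrix (Fin n) (Fin n) K) (((A : Matrix (Fin n) (Fin n) K).map (fun x : K => x ^ q)).transpose)⁻¹ := by
  have hmap : (A : Matrix (Fin n) (Fin n) K).map (fun x : K => x ^ q) = (A : Matrix (Fin n) (Fin n) K).map (Cfsg.Agent.H5.Fld.frob hK) := by
    ext i j
    exact (Cfsg.Agent.H5.Fld.frob_apply hK _).symm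
  rw [hmap]
  change _ ↔ IsConj _ (Cfsg.Agent.H16.CjU.st hK A.val)⁻¹
  have hinv : ∀ X : GL (Fin n) K, Cfsg.Agent.H16.CjU.st hK X.val * Cfsg.Agent.H16.CjU.st hK (X⁻¹).val = 1 := by
    intro X
    rw [← Cfsg.Agent.H16.CjU.st_mul, ← Units.val_mul, inv_mul_cancel, Units.val_one, Cfsg.Agent.H16.CjU.st_one]
  have hinv' : ∀ X : GL (Fin n) K, (Cfsg.Agent.H16.CjU.st hK X.val)⁻¹ = Cfsg.Agent.H16.CjU.st hK (X⁻¹).val :=
    fun X => Matrix.inv_eq_right_inv (hinv X)
  constructor
  · rintro ⟨B, hB⟩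
    obtain ⟨c, hc⟩ := isConj_iff.mp hB
    have hBu := (Cfsg.Agent.H16.CjU.mem_GU_st hK B.1).mp B.2
    -- `B = c A c⁻¹`, `st (B⁻¹) = B`
    have hBi : Cfsg.Agent.H16.CjU.st hK (B.1⁻¹).val = B.1.val := by
      have h1 := congrArg (fun X => X * B.1⁻¹.val) hBu
      simp only [mul_assoc] at h1
      rw [← Units.val_mul, mul_inv_cancel, Units.val_one, mul_one, one_mul] at h1
      rw [← h1, Cfsg.Agent.H16.CjU.st_st]
    have hAi : A⁻¹ = c⁻¹ * B.1⁻¹ * c := by rw [← hc]; group
    rw [hinv', hAi, Units.val_mul, Units.val_mul, Cfsg.Agent.H16.CjU.st_mul, Cfsg.Agent.H16.CjU.st_mul, hBi]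
    -- `st c * B * st c⁻¹`
    have hcc : Cfsg.Agent.H16.CjU.st hK (c⁻¹).val * Cfsg.Agent.H16.CjU.st hK c.val = 1 := by
      have := hinv c⁻¹
      rwa [inv_inv] at this
    have hcm : B.1.val = c.val * A.val * (c⁻¹).val := by
      rw [← Units.val_mul, ← Units.val_mul, hc]
    refine ⟨⟨Cfsg.Agent.H16.CjU.st hK c.val * c.val, (c⁻¹).val * Cfsg.Agent.H16.CjU.st hK (c⁻¹).val, ?_, ?_⟩, ?_⟩
    · rw [mul_assoc, ← mul_assoc c.val, ← Units.val_mul, mul_inv_cancel, Units.val_one, one_mul, hinv]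
    · rw [mul_assoc, ← mul_assoc (Cfsg.Agent.H16.CjU.st hK (c⁻¹).val), hcc, one_mul, ← Units.val_mul, inv_mul_cancel, Units.val_one]
    · change Cfsg.Agent.H16.CjU.st hK c.val * c.val * A.val = Cfsg.Agent.H16.CjU.st hK c.val * (B.1.val * Cfsg.Agent.H16.CjU.st hK (c⁻¹).val) *
        (Cfsg.Agent.H16.CjU.st hK c.val * c.val)
      have h2 : Cfsg.Agent.H16.CjU.st hK c.val * (B.1.val * Cfsg.Agent.H16.CjU.st hK (c⁻¹).val) *
        (Cfsg.Agent.H16.CjU.st hK c.val * c.val) = Cfsg.Agent.H16.CjU.st hK c.val * B.1.val *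
          (Cfsg.Agent.H16.CjU.st hK (c⁻¹).val * Cfsg.Agent.H16.CjU.st hK c.val) * c.val := by simp only [mul_assoc]
      rw [h2, hcc, mul_one, hcm]
      have h3 : (c⁻¹).val * c.val = 1 := by rw [← Units.val_mul, inv_mul_cancel, Units.val_one]
      simp only [mul_assoc]
      rw [h3, mul_one]
  · rintro ⟨P, hP⟩
    have hP' : P.val * A.val = (Cfsg.Agent.H16.CjU.st hK A.val)⁻¹ * P.val := hP
    obtain ⟨B, hB, hAB⟩ := Cfsg.Agent.H16.CjU.exists_GU hK (A := A) (P := P) (by
      rw [mul_assoc, hP', hinv', ← mul_assoc, hinv, one_mul])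
    exact ⟨⟨B, hB⟩, hAB⟩

end Cfsg.Agent.S2588
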