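import Mathlib
import Cfsg.Agent.H15_RC10
import Cfsg.Agent.S2587
import Cfsg.Agent.S2588

set_option autoImplicit false
set_option linter.all false
open Polynomial Module Matrix

namespace Cfsg.Agent.H15.RC

universe u

section gu
variable {K : Type u} [Field K] [Fintype K] {q : ℕ} (hK : Fintype.card K = q ^ 2) {n : ℕ}

theorem frob_frob (x : K) : Cfsg.Agent.H5.Fld.frob hK (Cfsg.Agent.H5.Fld.frob hK x) = x := by
  rw [Cfsg.Agent.H5.Fld.frob_apply, Cfsg.Agent.H5.Fld.frob_apply, ← pow_mul, ← pow_two, ← hK]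
  exact FiniteField.pow_card x

/-- the involution of K -/
noncomputable def fs : K ≃+* K := RingEquiv.ofRingHom (Cfsg.Agent.H5.Fld.frob hK) (Cfsg.Agent.H5.Fld.frob hK)
  (RingHom.ext (frob_frob hK)) (RingHom.ext (frob_frob hK))

theorem fs_apply (x : K) : fs hK x = x ^ q := Cfsg.Agent.H5.Fld.frob_apply hK x

theorem fs_fs (x : K) : fs hK (fs hK x) = x := frob_frob hK x

theorem gu_exists (g : GL (Fin n) K) {T : Multiset (K[X] × ℕ)} (hT : MT (g : Matrix (Fin n) (Fin n) K) T) :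
    (∃ B : ↥(Cfsg.GU n K q), IsConj g (B : GL (Fin n) K)) ↔ dT (fs hK) T = T := by
  rw [Cfsg.Agent.S2588.result hK]
  have h0 : (((g : Matrix (Fin n) (Fin n) K).map (fun x : K => x ^ q)).transpose)⁻¹ = sit (fs hK) g := by
    unfold sit
    have : (g : Matrix (Fin n) (Fin n) K).map (fun x : K => x ^ q) = (g : Matrix (Fin n) (Fin n) K).map (fs hK) := by
      ext i j
      exact (fs_apply hK _).symm
    rw [this]
  rw [h0]
  have h1 := MT_sit (σ := fs hK) (fs_fs hK) g hT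
  obtain ⟨k, hk⟩ : ∃ k : GL (Fin n) K, (k : Matrix (Fin n) (Fin n) K) = sit (fs hK) g := by
    have h1 : IsUnit (sit (fs hK) g) := by
      unfold sit
      exact (Matrix.isUnit_nonsing_inv_iff).2 (isUnit_mapT _ g)
    exact ⟨h1.unit, rfl⟩
  rw [← hk] at h1 ⊢
  rw [eq_comm, ← isConj_iff_type g k hT h1]
  constructor
  · rintro ⟨c, hc⟩
    exact isConj_iff.2 ⟨c, by
      rw [mul_inv_eq_iff_eq_mul]
      exact Units.ext hc⟩
  · intro h
    obtain ⟨c, hc⟩ := isConj_iff.1 h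
    refine ⟨c, ?_⟩
    rw [mul_inv_eq_iff_eq_mul] at hc
    exact congrArg Units.val hc

theorem gu_selfdual (g : ↥(Cfsg.GU n K q)) {T : Multiset (K[X] × ℕ)} (hT : MT ((g : GL (Fin n) K) : Matrix (Fin n) (Fin n) K) T) :
    dT (fs hK) T = T := (gu_exists hK g.1 hT).1 ⟨g, IsConj.refl _⟩

/-- counting classes of GU with a property -/
theorem gu_card_classes (P : ↥(Cfsg.GU n K q) → Prop) (P' : Multiset (K[X] × ℕ) → Prop)
    (h : ∀ (g : ↥(Cfsg.GU n K q)) T, MT ((g : GL (Fin n) K) : Matrix (Fin n) (Fin n) K) T → (P g ↔ P' T)) :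
    Nat.card {C : ConjClasses ↥(Cfsg.GU n K q) // ∃ g : ↥(Cfsg.GU n K q), ConjClasses.mk g = C ∧ P g} =
      Nat.card {T : Multiset (K[X] × ℕ) // Adm n T ∧ dT (fs hK) T = T ∧ P' T} := by
  classical
  symm
  have hex : ∀ T : {T : Multiset (K[X] × ℕ) // Adm n T ∧ dT (fs hK) T = T ∧ P' T},
      ∃ g : ↥(Cfsg.GU n K q), MT ((g : GL (Fin n) K) : Matrix (Fin n) (Fin n) K) T.1 := by
    rintro ⟨T, h1, h2, h3⟩
    obtain ⟨k, hk⟩ := exists_of_adm h1
    obtain ⟨g, hg⟩ := (gu_exists hK k hk).2 h2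
    obtain ⟨T', hT'⟩ := exists_type (Matrix.toLin' ((g : GL (Fin n) K) : Matrix (Fin n) (Fin n) K) : Module.End K (Fin n → K))
    have := (isConj_iff_type k g.1 hk hT').1 hg
    subst this
    exact ⟨g, hT'⟩
  choose f hf using hex
  apply Nat.card_congr
  refine Equiv.ofBijective (fun T => ⟨ConjClasses.mk (f T), f T, rfl, (h _ _ (hf T)).2 T.2.2.2⟩) ⟨?_, ?_⟩
  · intro T S hTS
    have h1 := congrArg Subtype.val hTS
    have h2 : IsConj (f T) (f S) := ConjClasses.mk_eq_mk_iff_isConj.1 h1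
    rw [Cfsg.Agent.S2587.result hK] at h2
    exact Subtype.ext ((isConj_iff_type _ _ (hf T) (hf S)).1 h2)
  · rintro ⟨C, g, rfl, hg⟩
    obtain ⟨T, hT⟩ := exists_type (Matrix.toLin' ((g : GL (Fin n) K) : Matrix (Fin n) (Fin n) K) : Module.End K (Fin n → K))
    have hadm : Adm n T := by
      have := typ_adm (ConjClasses.mk (g : GL (Fin n) K))
      rwa [typ_mk _ hT] at this
    refine ⟨⟨T, hadm, gu_selfdual hK g hT, (h g T hT).1 hg⟩, ?_⟩
    apply Subtype.ext
    change ConjClasses.mk (f _) = ConjClasses.mk g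
    rw [ConjClasses.mk_eq_mk_iff_isConj, Cfsg.Agent.S2587.result hK, isConj_iff_type _ _ (hf _) hT]

end gu

theorem dl_X1 {F : Type u} [Field F] (σ : F ≃+* F) : dl σ (X - 1) = X - 1 := by
  unfold dl
  rw [Polynomial.map_sub, Polynomial.map_X, Polynomial.map_one]
  have h1 : (X - 1 : F[X]).reverse = 1 - X := by
    change reflect (X - 1 : F[X]).natDegree (X - 1) = _
    rw [deg_X1, reflect_sub, reflect_one_X, reflect_one, pow_one]
  rw [h1, coeff_sub, coeff_X_zero, coeff_one_zero, zero_sub]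
  simp

end Cfsg.Agent.H15.RC
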