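import Mathlib
import Cfsg.Agent.H15_RC11

set_option autoImplicit false
set_option linter.all false
open Polynomial Module Matrix UniqueFactorizationMonoid

namespace Cfsg.Agent.H15.RC

universe u
variable {F : Type u} [Field F]

theorem orderOf_isConj {G : Type*} [Group G] {g k : G} (h : IsConj g k) : orderOf g = orderOf k := by
  obtain ⟨c, hc⟩ := isConj_iff.1 h
  rw [← hc]
  exact (orderOf_injective (MulAut.conj c).toMonoidHom (MulAut.conj c).injective g).symm

/-- property of types: elements have order r -/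
def OrdT (n r : ℕ) (T : Multiset (F[X] × ℕ)) : Prop := ∃ k : GL (Fin n) F, MT (k : Matrix (Fin n) (Fin n) F) T ∧ orderOf k = r

theorem OrdT_iff {n r : ℕ} (g : GL (Fin n) F) {T : Multiset (F[X] × ℕ)} (hT : MT (g : Matrix (Fin n) (Fin n) F) T) : orderOf g = r ↔ OrdT n r T := by
  constructor
  · intro h; exact ⟨g, hT, h⟩
  · rintro ⟨k, hk, hk2⟩
    rw [← hk2]
    exact orderOf_isConj ((isConj_iff_type g k hT hk).2 rfl)

/-- the type of an element of prime order r -/
noncomputable def tM (r i n : ℕ) (M : Multiset (Psi F r)) : Multiset (F[X] × ℕ) :=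
  M.map (fun P : Psi F r => (P.1, 1)) + Multiset.replicate (n - i * Multiset.card M) ((X - 1 : F[X]), 1)

section
variable {r i t : ℕ} (hr : r.Prime) (ht : t * i = r - 1)

include hr in
theorem cyc_eq : cyclotomic r F * (X - 1) = X ^ r - 1 := by
  haveI := Fact.mk hr
  exact cyclotomic_prime_mul_X_sub_one F r

include hr in
theorem cyc_ne_X (P : F[X]) (h : P ∣ cyclotomic r F) : P ≠ X := by
  rintro rfl
  have h1 : (X : F[X]) ∣ X ^ r - 1 := by rw [← cyc_eq hr]; exact h.mul_right _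
  rw [X_dvd_iff] at h1
  simp [hr.ne_zero.symm] at h1

include hr ht in
theorem i_pos : 0 < i := by
  rcases Nat.eq_zero_or_pos i with h | h
  · rw [h, mul_zero] at ht; have := hr.two_le; omega
  · exact h

end

section
variable [Fintype F] {p q : ℕ} [Fact p.Prime] [CharP F p] (hF : Fintype.card F = q) {r i t : ℕ} (hr : r.Prime) (hrp : r ≠ p)
  (hi : i = orderOf (q : ZMod r)) (ht : t * i = r - 1)

include hr hrp in
theorem rF_ne : (r : F) ≠ 0 := by
  have hp : p.Prime := Fact.out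
  rw [Ne, CharP.cast_eq_zero_iff F p]
  intro h
  exact hrp ((Nat.prime_dvd_prime_iff_eq hp hr).1 h).symm

include hr hrp in
theorem sqfree_r : Squarefree (X ^ r - 1 : F[X]) := (X_pow_sub_one_separable_iff.2 (rF_ne (p := p) hr hrp)).squarefree

include hr hrp in
theorem X1_ndvd : ¬ (X - 1 : F[X]) ∣ cyclotomic r F := by
  intro h
  have : (X - 1) * (X - 1) ∣ (X ^ r - 1 : F[X]) := by rw [← cyc_eq hr]; exact mul_dvd_mul_right h _
  exact irr_X1.not_isUnit (sqfree_r (p := p) hr hrp _ this)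

include hr hrp in
theorem hdiv_r (P : F[X]) (hP : Irreducible P) (hPm : P.Monic) (j : ℕ) (hj : 1 ≤ j) : (P ^ j ∣ X ^ r - 1 ↔ j = 1 ∧ (P = X - 1 ∨ P ∣ cyclotomic r F)) := by
  have hsq := sqfree_r (F := F) (p := p) hr hrp
  have hcyc := cyc_eq (F := F) hr
  constructor
  · intro h
    have h1 : P ∣ X ^ r - 1 := (dvd_pow_self P (by omega)).trans h
    refine ⟨?_, ?_⟩
    · by_contra hj1
      have : P * P ∣ X ^ r - 1 := by
        rw [← pow_two]; exact (pow_dvd_pow P (by omega)).trans h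
      exact hP.not_isUnit (hsq _ this)
    · rw [← hcyc] at h1
      rcases hP.prime.dvd_or_dvd h1 with h2 | h2
      · exact Or.inr h2
      · exact Or.inl (eq_of_monic_of_associated hPm monic_X1 (hP.associated_of_dvd irr_X1 h2))
  · rintro ⟨rfl, h⟩
    rw [pow_one, ← hcyc]
    rcases h with rfl | h
    · exact dvd_mul_left _ _
    · exact h.mul_right _

include hr hrp in
theorem OrdT_iff' {n : ℕ} {T : Multiset (F[X] × ℕ)} (hadm : Adm n T) :
    OrdT n r T ↔ (∀ t ∈ T, t.2 = 1 ∧ (t.1 = X - 1 ∨ t.1 ∣ cyclotomic r F)) ∧ ¬ (∀ t ∈ T, t.1 = X - 1) := by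
  obtain ⟨g, hT⟩ := exists_of_adm hadm
  have hv := hT.valid
  rw [← OrdT_iff g hT]
  have h1 : g ^ r = 1 ↔ ∀ t ∈ T, t.2 = 1 ∧ (t.1 = X - 1 ∨ t.1 ∣ cyclotomic r F) := by
    have h3 := MT_aeval hT (X ^ r - 1)
    rw [map_sub, map_pow, aeval_X, map_one, sub_eq_zero] at h3
    have h4 : g ^ r = 1 ↔ (g : Matrix (Fin n) (Fin n) F) ^ r = 1 := by
      rw [Units.ext_iff]; rfl
    rw [h4, h3]
    constructor
    · intro h x hx; exact (hdiv_r (p := p) hr hrp x.1 (hv x hx).1 (hv x hx).2.1 x.2 (hv x hx).2.2).1 (h x hx)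
    · intro h x hx; exact (hdiv_r (p := p) hr hrp x.1 (hv x hx).1 (hv x hx).2.1 x.2 (hv x hx).2.2).2 (h x hx)
  have h2 : g = 1 ↔ ∀ t ∈ T, t.1 = X - 1 ∧ t.2 ≤ 1 := by
    rw [← MT_unip hT, pow_one, sub_eq_zero, Units.ext_iff]; rfl
  have h3 : orderOf g = r ↔ g ^ r = 1 ∧ ¬ g = 1 := by
    constructor
    · intro h
      refine ⟨h ▸ pow_orderOf_eq_one g, ?_⟩
      rintro rfl
      rw [orderOf_one] at h
      exact hr.one_lt.ne h
    · rintro ⟨h4, h5⟩
      haveI := Fact.mk hr
      exact orderOf_eq_prime h4 h5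
  rw [h3, h1, h2]
  constructor
  · rintro ⟨h4, h5⟩
    exact ⟨h4, fun h6 => h5 (fun t ht => ⟨h6 t ht, (h4 t ht).1.le⟩)⟩
  · rintro ⟨h4, h5⟩
    exact ⟨h4, fun h6 => h5 (fun t ht => (h6 t ht).1)⟩

include hF hr hrp hi ht in
theorem tM_adm {n : ℕ} {M : Multiset (Psi F r)} (hM : Multiset.card M ≤ n / i) : Adm n (tM r i n M) := by
  obtain ⟨hfin, hcard, hdeg⟩ := Psi_facts (F := F) hF hr hrp hi ht
  have hle : i * Multiset.card M ≤ n := by
    calc i * Multiset.card M ≤ i * (n / i) := Nat.mul_le_mul_left _ hM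
      _ ≤ n := Nat.mul_div_le n i
  refine ⟨?_, ?_, ?_⟩
  · intro x hx
    rcases Multiset.mem_add.1 hx with hx | hx
    · rw [Multiset.mem_map] at hx
      obtain ⟨P, -, rfl⟩ := hx
      exact ⟨P.2.1, P.2.2.1, le_rfl⟩
    · rw [Multiset.mem_replicate] at hx
      rw [hx.2]; exact ⟨irr_X1, monic_X1, le_rfl⟩
  · unfold tM
    rw [size_add]
    unfold size
    rw [Multiset.map_map, Multiset.map_replicate, Multiset.sum_replicate, deg_X1]
    have h1 : M.map ((fun t : F[X] × ℕ => t.2 * t.1.natDegree) ∘ fun P : Psi F r => (P.1, 1)) = M.map (fun _ => i) := by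
      apply Multiset.map_congr rfl
      intro P _
      simp only [Function.comp_apply, one_mul]
      exact hdeg P
    rw [h1, Multiset.map_const', Multiset.sum_replicate, smul_eq_mul, smul_eq_mul, mul_comm]
    omega
  · intro x hx
    rcases Multiset.mem_add.1 hx with hx | hx
    · rw [Multiset.mem_map] at hx
      obtain ⟨P, -, rfl⟩ := hx
      exact cyc_ne_X hr _ P.2.2.2
    · rw [Multiset.mem_replicate] at hx
      rw [hx.2]; exact X1_ne_X

open Classical in
include hr hrp in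
theorem tM_filter {n : ℕ} (M : Multiset (Psi F r)) : (tM r i n M).filter (fun t => ¬ t.1 = X - 1) = M.map (fun P : Psi F r => (P.1, 1)) := by
  unfold tM
  rw [Multiset.filter_add, Multiset.filter_eq_self.2, Multiset.filter_eq_nil.2, add_zero]
  · intro x hx
    rw [Multiset.mem_replicate] at hx
    rw [hx.2]; simp
  · intro x hx
    rw [Multiset.mem_map] at hx
    obtain ⟨P, -, rfl⟩ := hx
    rintro (h : P.1 = X - 1)
    exact X1_ndvd (p := p) hr hrp (h ▸ P.2.2.2)

include hr hrp in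
theorem tM_inj {n : ℕ} {M M' : Multiset (Psi F r)} (h : tM r i n M = tM r i n M') : M = M' := by
  classical
  have h2 : M.map (fun P : Psi F r => (P.1, 1)) = M'.map (fun P : Psi F r => (P.1, 1)) := by
    rw [← tM_filter (p := p) (i := i) (n := n) hr hrp M, h, tM_filter (p := p) hr hrp M']
  exact Multiset.map_injective (fun a b hab => Subtype.ext (congrArg Prod.fst hab)) h2

include hF hr hrp hi ht in
theorem tM_ord {n : ℕ} {M : Multiset (Psi F r)} (hM : Multiset.card M ≤ n / i) (h0 : M ≠ 0) : OrdT n r (tM r i n M) := by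
  rw [OrdT_iff' (p := p) hr hrp (tM_adm hF hr hrp hi ht hM)]
  refine ⟨?_, ?_⟩
  · intro x hx
    rcases Multiset.mem_add.1 hx with hx | hx
    · rw [Multiset.mem_map] at hx
      obtain ⟨P, -, rfl⟩ := hx
      exact ⟨rfl, Or.inr P.2.2.2⟩
    · rw [Multiset.mem_replicate] at hx
      rw [hx.2]; exact ⟨rfl, Or.inl rfl⟩
  · intro h
    apply h0
    apply Multiset.eq_zero_of_forall_notMem
    intro P hP
    have : P.1 = X - 1 := h (P.1, 1) (Multiset.mem_add.2 (Or.inl (Multiset.mem_map_of_mem _ hP)))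
    exact X1_ndvd (p := p) hr hrp (this ▸ P.2.2.2)

include hF hr hrp hi ht in
theorem exists_tM {n : ℕ} {T : Multiset (F[X] × ℕ)} (hT : Adm n T) (ho : OrdT n r T) : ∃ M : Multiset (Psi F r), Multiset.card M ≤ n / i ∧ M ≠ 0 ∧ tM r i n M = T := by
  classical
  obtain ⟨hfin, hcard, hdeg⟩ := Psi_facts (F := F) hF hr hrp hi ht
  have hi0 := i_pos hr ht
  obtain ⟨h1, h2⟩ := (OrdT_iff' (p := p) hr hrp hT).1 ho
  obtain ⟨M, hM⟩ : ∃ M : Multiset (Psi F r), M.map (fun P : Psi F r => (P.1, 1)) = T.filter (fun t => ¬ t.1 = X - 1) := by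
    have hex : ∀ x ∈ T.filter (fun t => ¬ t.1 = X - 1), ∃ P : Psi F r, (P.1, 1) = x := by
      intro x hx
      rw [Multiset.mem_filter] at hx
      have h3 := h1 x hx.1
      refine ⟨⟨x.1, (hT.1 x hx.1).1, (hT.1 x hx.1).2.1, h3.2.resolve_left hx.2⟩, ?_⟩
      exact Prod.ext rfl h3.1.symm
    exact exists_map_eq _ _ hex
  have hrep : T.filter (fun t => t.1 = X - 1) = Multiset.replicate (Multiset.card (T.filter (fun t => t.1 = X - 1))) ((X - 1 : F[X]), 1) := by
    rw [Multiset.eq_replicate_card]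
    intro x hx
    rw [Multiset.mem_filter] at hx
    exact Prod.ext hx.2 (h1 x hx.1).1
  have hsum : M.map (fun P : Psi F r => (P.1, 1)) + Multiset.replicate (Multiset.card (T.filter (fun t => t.1 = X - 1))) ((X - 1 : F[X]), 1) = T := by
    rw [hM, ← hrep, add_comm]; exact Multiset.filter_add_not _ _
  have hsz : i * Multiset.card M + Multiset.card (T.filter (fun t => t.1 = X - 1)) = n := by
    have h3 := hT.2.1
    rw [← hsum, size_add] at h3
    unfold size at h3
    rw [Multiset.map_map, Multiset.map_replicate, Multiset.sum_replicate, deg_X1] at h3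
    have h4 : M.map ((fun t : F[X] × ℕ => t.2 * t.1.natDegree) ∘ fun P : Psi F r => (P.1, 1)) = M.map (fun _ => i) := by
      apply Multiset.map_congr rfl
      intro P _
      simp only [Function.comp_apply, one_mul]
      exact hdeg P
    rw [h4, Multiset.map_const', Multiset.sum_replicate, smul_eq_mul, smul_eq_mul, mul_one, mul_one, mul_comm] at h3
    exact h3
  have hMn : Multiset.card M ≤ n / i := by
    rw [Nat.le_div_iff_mul_le hi0, mul_comm]; omega
  refine ⟨M, hMn, ?_, ?_⟩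
  · intro h0'
    apply h2
    intro x hx
    by_contra hx1
    have : x ∈ T.filter (fun t => ¬ t.1 = X - 1) := Multiset.mem_filter.2 ⟨hx, hx1⟩
    rw [← hM, h0'] at this
    simp at this
  · unfold tM
    have : n - i * Multiset.card M = Multiset.card (T.filter (fun t => t.1 = X - 1)) := by omega
    rw [this]; exact hsum

include hF hr hrp hi ht in
theorem card_tM (n : ℕ) (R : Multiset (F[X] × ℕ) → Prop) :
    Nat.card {T : Multiset (F[X] × ℕ) // Adm n T ∧ R T ∧ OrdT n r T} = Nat.card {M : Multiset (Psi F r) // Multiset.card M ≤ n / i ∧ M ≠ 0 ∧ R (tM r i n M)} := by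
  symm
  apply Nat.card_congr
  refine Equiv.ofBijective (fun M => ⟨tM r i n M.1, tM_adm hF hr hrp hi ht M.2.1, M.2.2.2, tM_ord hF hr hrp hi ht M.2.1 M.2.2.1⟩) ⟨?_, ?_⟩
  · intro M M' h
    exact Subtype.ext (tM_inj (p := p) hr hrp (congrArg Subtype.val h))
  · rintro ⟨T, h1, h2, h3⟩
    obtain ⟨M, h4, h5, rfl⟩ := exists_tM hF hr hrp hi ht h1 h3
    exact ⟨⟨M, h4, h5, h2⟩, rfl⟩

end

section dualPsi
variable {σ : F ≃+* F} {r : ℕ}

theorem cyc_coeff0 (r : ℕ) (P : Psi F r) (hr : r.Prime) : P.1.coeff 0 ≠ 0 := coeff0_ne P.2.1 P.2.2.1 (cyc_ne_X hr _ P.2.2.2)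

theorem rev_Xr (r : ℕ) (hr : 1 ≤ r) : (X ^ r - 1 : F[X]).reverse = 1 - X ^ r := by
  have hd : (X ^ r - 1 : F[X]).natDegree = r := by
    rw [← C_1]; exact natDegree_X_pow_sub_C
  change reflect (X ^ r - 1 : F[X]).natDegree (X ^ r - 1) = _
  rw [hd, reflect_sub, reflect_monomial, reflect_one, revAt_le le_rfl, Nat.sub_self, pow_zero]

theorem reverse_dvd {P Q : F[X]} (h : P ∣ Q) : P.reverse ∣ Q.reverse := by
  obtain ⟨c, rfl⟩ := h
  rw [reverse_mul_of_domain]; exact dvd_mul_right _ _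

theorem dl_dvd_Xr {P : F[X]} (h0 : P.coeff 0 ≠ 0) {r : ℕ} (hr : 1 ≤ r) (h : P ∣ X ^ r - 1) : dl σ P ∣ X ^ r - 1 := by
  rw [← (dl_assoc h0).dvd_iff_dvd_left]
  have h1 : P.map (σ : F →+* F) ∣ X ^ r - 1 := by
    have := Polynomial.map_dvd (σ : F →+* F) h
    rwa [Polynomial.map_sub, Polynomial.map_pow, Polynomial.map_X, Polynomial.map_one] at this
  have h2 := reverse_dvd h1
  rw [rev_Xr r hr] at h2
  rwa [← neg_sub, dvd_neg] at h2

theorem dl_inj_X1 {P : F[X]} (hσ : ∀ x, σ (σ x) = x) (h0 : P.coeff 0 ≠ 0) (hm : P.Monic) (h : dl σ P = X - 1) : P = X - 1 := by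
  rw [← dl_dl hσ h0 hm, h, dl_X1]

theorem dl_cyc (hσ : ∀ x, σ (σ x) = x) (hr : r.Prime) (P : Psi F r) : dl σ P.1 ∣ cyclotomic r F := by
  have h0 := cyc_coeff0 r P hr
  by_cases hX : P.1 = X - 1
  · rw [hX, dl_X1, ← hX]; exact P.2.2.2
  have h1 : P.1 ∣ X ^ r - 1 := by rw [← cyc_eq hr]; exact P.2.2.2.mul_right _
  have h2 := dl_dvd_Xr (σ := σ) h0 hr.one_lt.le h1
  rw [← cyc_eq hr] at h2
  rcases (dl_irr (σ := σ) P.2.1 h0).prime.dvd_or_dvd h2 with h3 | h3
  · exact h3
  · exfalso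
    have h4 := eq_of_monic_of_associated (dl_monic h0) monic_X1 ((dl_irr (σ := σ) P.2.1 h0).associated_of_dvd irr_X1 h3)
    exact hX (dl_inj_X1 hσ h0 P.2.2.1 h4)

/-- duality on the irreducible factors -/
noncomputable def dPsi (hσ : ∀ x, σ (σ x) = x) (hr : r.Prime) (P : Psi F r) : Psi F r :=
  ⟨dl σ P.1, dl_irr P.2.1 (cyc_coeff0 r P hr), dl_monic (cyc_coeff0 r P hr), dl_cyc hσ hr P⟩

theorem dPsi_dPsi (hσ : ∀ x, σ (σ x) = x) (hr : r.Prime) (P : Psi F r) : dPsi hσ hr (dPsi hσ hr P) = P :=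
  Subtype.ext (dl_dl hσ (cyc_coeff0 r P hr) P.2.2.1)

theorem dT_tM (hσ : ∀ x, σ (σ x) = x) (hr : r.Prime) (i n : ℕ) (M : Multiset (Psi F r)) : dT σ (tM r i n M) = tM r i n (M.map (dPsi hσ hr)) := by
  unfold dT tM
  rw [Multiset.map_add, Multiset.map_map, Multiset.map_map, Multiset.map_replicate, Multiset.card_map, dl_X1]
  rfl

end dualPsi

/-- invariant multisets for a fixed point free involution -/
theorem card_inv_multiset {S : Type*} [Finite S] (d : S → S) (hd : ∀ x, d (d x) = x) (hf : ∀ x, d x ≠ x) (N : ℕ) :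
    Nat.card {M : Multiset S // Multiset.card M ≤ N ∧ M.map d = M} = Nat.choose (N / 2 + Nat.card S / 2) (Nat.card S / 2) := by
  classical
  -- a transversal
  obtain ⟨A, hA⟩ : ∃ A : Set S, ∀ x, x ∈ A ↔ d x ∉ A := by
    haveI := Fintype.ofFinite S
    let e := Fintype.equivFin S
    refine ⟨{x | e x < e (d x)}, fun x => ?_⟩
    simp only [Set.mem_setOf_eq, hd]
    have : e x ≠ e (d x) := fun h => hf x (e.injective h).symm
    omega
  have hcard : Nat.card S = 2 * Nat.card A := by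
    haveI := Fintype.ofFinite S
    have e1 : Nat.card S = Nat.card A + Nat.card {x // x ∉ A} := by
      rw [← Nat.card_congr (Equiv.sumCompl (· ∈ A)), Nat.card_sum]
    have e2 : Nat.card {x // x ∉ A} = Nat.card A := by
      apply Nat.card_congr
      refine ⟨fun x => ⟨d x.1, by rw [hA, hd]; exact x.2⟩, fun x => ⟨d x.1, (hA _).1 x.2⟩, fun x => Subtype.ext (hd _), fun x => Subtype.ext (hd _)⟩
    rw [e1, e2]; ring
  rw [hcard, Nat.mul_div_cancel_left _ (by norm_num : 0 < 2)]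
  have hmul := card_multiset_le (S := A) (N / 2)
  have hc2 : Nat.card (↑A : Type _) = Nat.card A := rfl
  rw [← hmul]
  symm
  apply Nat.card_congr
  have hdinj : Function.Injective d := fun a b h => by rw [← hd a, h, hd]
  refine Equiv.ofBijective (fun M => ⟨M.1.map Subtype.val + (M.1.map Subtype.val).map d, ?_, ?_⟩) ⟨?_, ?_⟩
  · have := M.2
    rw [Multiset.card_add, Multiset.card_map, Multiset.card_map, Multiset.card_map]
    omega
  · rw [Multiset.map_add, Multiset.map_map, Multiset.map_map, add_comm]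
    congr 1
    · apply Multiset.map_congr rfl
      intro x _
      simp only [Function.comp_apply, hd]
  · rintro ⟨M, hM⟩ ⟨M', hM'⟩ h
    have h1 : M.map Subtype.val + (M.map Subtype.val).map d = M'.map Subtype.val + (M'.map Subtype.val).map d := congrArg Subtype.val h
    have hfil : ∀ M : Multiset A, (M.map Subtype.val + (M.map Subtype.val).map d).filter (· ∈ A) = M.map Subtype.val := by
      intro M
      rw [Multiset.filter_add, Multiset.filter_eq_self.2, Multiset.filter_eq_nil.2, add_zero]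
      · intro x hx
        rw [Multiset.mem_map] at hx
        obtain ⟨y, hy, rfl⟩ := hx
        rw [Multiset.mem_map] at hy
        obtain ⟨z, -, rfl⟩ := hy
        exact (hA _).1 z.2
      · intro x hx
        rw [Multiset.mem_map] at hx
        obtain ⟨y, -, rfl⟩ := hx
        exact y.2
    have h2 : M.map Subtype.val = M'.map (Subtype.val : A → S) := by rw [← hfil M, h1, hfil M']
    exact Subtype.ext (Multiset.map_injective Subtype.val_injective h2)
  · rintro ⟨M, hM, hMd⟩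
    obtain ⟨M', hM'⟩ : ∃ M' : Multiset A, M'.map Subtype.val = M.filter (· ∈ A) := by
      apply exists_map_eq
      intro x hx
      exact ⟨⟨x, (Multiset.mem_filter.1 hx).2⟩, rfl⟩
    have h1 : (M.filter (· ∈ A)).map d = M.filter (fun x => ¬ x ∈ A) := by
      conv_rhs => rw [← hMd]
      rw [Multiset.filter_map]
      congr 1
      apply Multiset.filter_congr
      intro x _
      simp only [Function.comp_apply]
      exact hA x
    have h2 : M'.map Subtype.val + (M'.map Subtype.val).map d = M := by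
      rw [hM', h1, Multiset.filter_add_not]
    refine ⟨⟨M', ?_⟩, Subtype.ext h2⟩
    have h3 := congrArg Multiset.card h2
    rw [Multiset.card_add, Multiset.card_map, Multiset.card_map, Multiset.card_map] at h3
    omega

theorem card_ne_zero_multiset {S : Type*} [Finite S] (R : Multiset S → Prop) (h0 : R 0) (hf : Finite {M : Multiset S // R M}) :
    Nat.card {M : Multiset S // M ≠ 0 ∧ R M} = Nat.card {M : Multiset S // R M} - 1 := by
  classical
  haveI := Fintype.ofFinite {M : Multiset S // R M}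
  have e : {M : Multiset S // M ≠ 0 ∧ R M} ≃ {x : {M : Multiset S // R M} // x ≠ ⟨0, h0⟩} :=
    ⟨fun x => ⟨⟨x.1, x.2.2⟩, fun h => x.2.1 (congrArg Subtype.val h)⟩, fun x => ⟨x.1.1, fun h => x.2 (Subtype.ext h), x.1.2⟩, fun _ => rfl, fun _ => rfl⟩
  rw [Nat.card_congr e, Nat.card_eq_fintype_card, Nat.card_eq_fintype_card, Fintype.card_subtype_compl, Fintype.card_subtype_eq]

section roots
variable [Fintype F] {p q : ℕ} [Fact p.Prime] [CharP F p] (hF : Fintype.card F = q) {r i t : ℕ} (hr : r.Prime) (hrp : r ≠ p)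
  (hi : i = orderOf (q : ZMod r)) (ht : t * i = r - 1)

include hr hrp in
theorem psi_root (P : Psi F r) : ∃ ζ : AlgebraicClosure F, aeval ζ P.1 = 0 ∧ IsPrimitiveRoot ζ r := by
  have hd : (P.1.degree) ≠ 0 := by
    have := P.2.1.natDegree_pos
    intro h
    rw [natDegree_eq_zero_iff_degree_le_zero.2 h.le] at this
    exact lt_irrefl _ this
  obtain ⟨ζ, hζ⟩ := IsAlgClosed.exists_aeval_eq_zero (AlgebraicClosure F) P.1 hd
  refine ⟨ζ, hζ, ?_⟩
  have h1 : aeval ζ (cyclotomic r F) = 0 := by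
    obtain ⟨c, hc⟩ := P.2.2.2
    rw [hc, map_mul, hζ, zero_mul]
  haveI : NeZero (r : AlgebraicClosure F) := ⟨by
    have := rF_ne (F := F) (p := p) hr hrp
    rw [← map_natCast (algebraMap F (AlgebraicClosure F))]
    exact (_root_.map_ne_zero _).2 this⟩
  rw [← isRoot_cyclotomic_iff]
  rw [IsRoot, ← map_cyclotomic r (algebraMap F (AlgebraicClosure F)), eval_map_algebraMap]
  exact h1

include hF in
theorem psi_frob {P : F[X]} {ζ : AlgebraicClosure F} (h : aeval ζ P = 0) (j : ℕ) : aeval (ζ ^ (q ^ j)) P = 0 := by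
  induction j with
  | zero => simpa using h
  | succ j ih =>
    rw [pow_succ, pow_mul]
    have h1 : aeval (ζ ^ (q ^ j)) (expand F q P) = (aeval (ζ ^ (q ^ j)) P) ^ q := by
      rw [← hF, FiniteField.expand_card, map_pow]
    rw [expand_aeval, ih, zero_pow] at h1
    · exact h1
    · rw [← hF]; exact Fintype.card_ne_zero

theorem pow_eq_of_zmod {L : Type*} [Field L] {ζ : L} {r : ℕ} (hζ : IsPrimitiveRoot ζ r) (hr0 : r ≠ 0) (a b : ℕ) : ζ ^ a = ζ ^ b ↔ (a : ZMod r) = (b : ZMod r) := by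
  have hz : ζ ≠ 0 := hζ.ne_zero hr0
  have h1 : ∀ a : ℕ, ζ ^ a = ((Units.mk0 ζ hz ^ a : Lˣ) : L) := fun a => by rw [Units.val_pow_eq_pow_val, Units.val_mk0]
  rw [ZMod.natCast_eq_natCast_iff, h1, h1, Units.val_inj, pow_eq_pow_iff_modEq, ← orderOf_units, Units.val_mk0, ← hζ.eq_orderOf]

include hF hr hrp hi ht in
theorem psi_roots (P : Psi F r) {ζ η : AlgebraicClosure F} (hζ : aeval ζ P.1 = 0) (hp : IsPrimitiveRoot ζ r) (hη : aeval η P.1 = 0) : ∃ j : ℕ, η = ζ ^ (q ^ j) := by
  classical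
  obtain ⟨hfin, hcard, hdeg⟩ := Psi_facts (F := F) hF hr hrp hi ht
  have hi0 := i_pos hr ht
  let S : Finset (AlgebraicClosure F) := (Finset.range i).image (fun j => ζ ^ (q ^ j))
  have hS : S ⊆ (P.1.aroots (AlgebraicClosure F)).toFinset := by
    intro x hx
    rw [Finset.mem_image] at hx
    obtain ⟨j, -, rfl⟩ := hx
    rw [Multiset.mem_toFinset, mem_aroots]
    exact ⟨P.2.1.ne_zero, psi_frob hF hζ j⟩
  have hSc : S.card = i := by
    rw [Finset.card_image_of_injOn, Finset.card_range]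
    intro a ha b hb hab
    simp only [Finset.coe_range, Set.mem_Iio] at ha hb
    simp only at hab
    rw [pow_eq_of_zmod hp hr.ne_zero] at hab
    push_cast at hab
    haveI := Fact.mk hr
    rw [hi] at ha hb
    exact pow_injOn_Iio_orderOf ha hb hab
  have hle : (P.1.aroots (AlgebraicClosure F)).toFinset.card ≤ S.card := by
    rw [hSc, ← hdeg P]
    refine (Multiset.toFinset_card_le _).trans ((card_roots' _).trans ?_)
    rw [natDegree_map]
  have hmem : η ∈ (P.1.aroots (AlgebraicClosure F)).toFinset := by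
    rw [Multiset.mem_toFinset, mem_aroots]
    exact ⟨P.2.1.ne_zero, hη⟩
  rw [← Finset.eq_of_subset_of_card_le hS hle, Finset.mem_image] at hmem
  obtain ⟨j, -, h⟩ := hmem
  exact ⟨j, h.symm⟩

theorem root_dl {σ : F ≃+* F} {k : ℕ} (hs : ∀ x, σ x = x ^ (p ^ k)) {P : F[X]} {ζ : AlgebraicClosure F} (hζ0 : ζ ≠ 0) (h : aeval ζ P = 0) :
    aeval ((ζ ^ (p ^ k))⁻¹) (dl σ P) = 0 := by
  have hp : p.Prime := Fact.out
  haveI : CharP (AlgebraicClosure F) p := charP_of_injective_algebraMap (algebraMap F (AlgebraicClosure F)).injective p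
  haveI : ExpChar (AlgebraicClosure F) p := ExpChar.prime hp
  unfold dl
  rw [map_mul]
  apply mul_eq_zero_of_right
  letI : Invertible (ζ ^ (p ^ k)) := invertibleOfNonzero (pow_ne_zero _ hζ0)
  have h1 : (ζ ^ (p ^ k))⁻¹ = ⅟(ζ ^ (p ^ k)) := (invOf_eq_inv _).symm
  rw [h1, aeval_def, eval₂_reverse_eq_zero_iff, eval₂_map]
  have h2 : (algebraMap F (AlgebraicClosure F)).comp (σ : F →+* F) = (iterateFrobenius (AlgebraicClosure F) p k).comp (algebraMap F (AlgebraicClosure F)) := by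
    ext x
    rw [RingHom.comp_apply, RingHom.comp_apply, iterateFrobenius_def, ← map_pow]
    congr 1
    exact hs x
  have h3 : ζ ^ (p ^ k) = iterateFrobenius (AlgebraicClosure F) p k ζ := (iterateFrobenius_def p k ζ).symm
  rw [h2, h3, ← hom_eval₂, ← aeval_def, h, map_zero]

include hF hr hrp hi ht in
theorem dPsi_eq_iff {σ : F ≃+* F} (hσ : ∀ x, σ (σ x) = x) {k : ℕ} (hs : ∀ x, σ x = x ^ (p ^ k)) (P : Psi F r) :
    dPsi hσ hr P = P ↔ ∃ j : ℕ, (-(p ^ k : ℕ) : ZMod r) = ((q ^ j : ℕ) : ZMod r) := by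
  obtain ⟨ζ, h1, h2⟩ := psi_root (p := p) hr hrp P
  have hζ0 : ζ ≠ 0 := h2.ne_zero hr.ne_zero
  have h3 := root_dl hs hζ0 h1
  have key : ∀ j : ℕ, (ζ ^ (p ^ k))⁻¹ = ζ ^ (q ^ j) ↔ (-(p ^ k : ℕ) : ZMod r) = ((q ^ j : ℕ) : ZMod r) := by
    intro j
    have h0 : ζ ^ (p ^ k) ≠ 0 := pow_ne_zero _ hζ0
    have h4 : (ζ ^ (p ^ k))⁻¹ = ζ ^ (q ^ j) ↔ ζ ^ (p ^ k) * ζ ^ (q ^ j) = 1 := by
      constructor
      · intro h; rw [← h, mul_inv_cancel₀ h0]
      · intro h; exact (eq_inv_of_mul_eq_one_right h).symm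
    rw [h4, ← pow_add, ← pow_zero ζ, pow_eq_of_zmod h2 hr.ne_zero]
    push_cast
    constructor
    · intro h; linear_combination (-1) * h
    · intro h; linear_combination (-1) * h
  constructor
  · intro h
    have h4 : dl σ P.1 = P.1 := congrArg Subtype.val h
    rw [h4] at h3
    obtain ⟨j, hj⟩ := psi_roots hF hr hrp hi ht P h1 h2 h3
    exact ⟨j, (key j).1 hj⟩
  · rintro ⟨j, hj⟩
    rw [← key j] at hj
    have h4 := psi_frob hF h1 j
    rw [hj] at h3
    apply Subtype.ext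
    have e1 := minpoly.eq_of_irreducible_of_monic (dPsi hσ hr P).2.1 h3 (dPsi hσ hr P).2.2.1
    have e2 := minpoly.eq_of_irreducible_of_monic P.2.1 h4 P.2.2.1
    rw [e1, ← e2]

end roots

end Cfsg.Agent.H15.RC
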