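import Mathlib
import Cfsg.Agent.H15_RC12

set_option autoImplicit false
set_option linter.all false
open Polynomial Module Matrix UniqueFactorizationMonoid

namespace Cfsg.Agent.H15.RC

universe u

theorem finite_ms {S : Type*} [Finite S] (N : ℕ) : Finite {M : Multiset S // Multiset.card M ≤ N} := by
  apply Nat.finite_of_card_ne_zero
  rw [card_multiset_le]
  exact (Nat.choose_pos (Nat.le_add_left _ _)).ne'

theorem finite_ms' {S : Type*} [Finite S] (N : ℕ) (R : Multiset S → Prop) : Finite {M : Multiset S // Multiset.card M ≤ N ∧ R M} := by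
  haveI := finite_ms (S := S) N
  exact Finite.of_injective (fun M : {M : Multiset S // Multiset.card M ≤ N ∧ R M} => (⟨M.1, M.2.1⟩ : {M : Multiset S // Multiset.card M ≤ N})) (fun a b h => Subtype.ext (by
    have h1 : (⟨a.1, a.2.1⟩ : {M : Multiset S // Multiset.card M ≤ N}) = ⟨b.1, b.2.1⟩ := h
    exact congrArg (fun x : {M : Multiset S // Multiset.card M ≤ N} => x.1) h1))

/-- counting the self-dual types of order r -/
theorem card_selfdual {F : Type u} [Field F] [Fintype F] {p Q : ℕ} [Fact p.Prime] [CharP F p] (hF : Fintype.card F = Q) {r b s : ℕ} (hr : r.Prime) (hrp : r ≠ p)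
    (hb : b = orderOf (Q : ZMod r)) (hs : s * b = r - 1) {σ : F ≃+* F} (hσ : ∀ x, σ (σ x) = x) (n : ℕ) :
    ((∀ P : Psi F r, dPsi hσ hr P = P) → Nat.card {T : Multiset (F[X] × ℕ) // Adm n T ∧ dT σ T = T ∧ OrdT n r T} = Nat.choose (n / b + s) s - 1) ∧
    ((∀ P : Psi F r, dPsi hσ hr P ≠ P) → Nat.card {T : Multiset (F[X] × ℕ) // Adm n T ∧ dT σ T = T ∧ OrdT n r T} = Nat.choose (n / b / 2 + s / 2) (s / 2) - 1) := by
  classical
  obtain ⟨hfin, hcard, hdeg⟩ := Psi_facts (F := F) hF hr hrp hb hs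
  haveI := hfin
  have e1 : Nat.card {T : Multiset (F[X] × ℕ) // Adm n T ∧ dT σ T = T ∧ OrdT n r T} =
      Nat.card {M : Multiset (Psi F r) // M ≠ 0 ∧ (Multiset.card M ≤ n / b ∧ M.map (dPsi hσ hr) = M)} := by
    rw [card_tM hF hr hrp hb hs n (fun T => dT σ T = T)]
    refine Nat.card_congr (Equiv.subtypeEquivRight (fun M => ?_))
    have : dT σ (tM r b n M) = tM r b n M ↔ M.map (dPsi hσ hr) = M := by
      rw [dT_tM hσ hr]
      exact ⟨fun h => tM_inj (p := p) hr hrp h, fun h => by rw [h]⟩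
    rw [this]
    tauto
  rw [e1, card_ne_zero_multiset _ (by simp) (finite_ms' _ _)]
  constructor
  · intro hd
    congr 1
    rw [← hcard, ← card_multiset_le]
    refine Nat.card_congr (Equiv.subtypeEquivRight (fun M => ?_))
    refine and_iff_left ?_
    conv_rhs => rw [← Multiset.map_id M]
    exact Multiset.map_congr rfl (fun P _ => hd P)
  · intro hd
    rw [card_inv_multiset (dPsi hσ hr) (dPsi_dPsi hσ hr) hd, hcard]

end Cfsg.Agent.H15.RC
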