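import Mathlib
import Cfsg.Agent.H15_RC6

set_option autoImplicit false
set_option linter.all false
open Polynomial Module Matrix UniqueFactorizationMonoid

namespace Cfsg.Agent.H15.RC

universe u
variable {F : Type u} [Field F]

/-- the substitution X ↦ cX -/
noncomputable def tau (c : Fˣ) : F[X] ≃ₐ[F] F[X] :=
  AlgEquiv.ofAlgHom (aeval (C (c : F) * X)) (aeval (C ((c⁻¹ : Fˣ) : F) * X))
    (by
      apply Polynomial.algHom_ext
      rw [AlgHom.comp_apply, aeval_X, map_mul, aeval_X, aeval_C, AlgHom.id_apply, ← mul_assoc, algebraMap_eq, ← C_mul, ← Units.val_mul, inv_mul_cancel]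
      simp)
    (by
      apply Polynomial.algHom_ext
      rw [AlgHom.comp_apply, aeval_X, map_mul, aeval_X, aeval_C, AlgHom.id_apply, ← mul_assoc, algebraMap_eq, ← C_mul, ← Units.val_mul, mul_inv_cancel]
      simp)

theorem tau_apply (c : Fˣ) (f : F[X]) : tau c f = f.comp (C (c : F) * X) := rfl

theorem tau_X (c : Fˣ) : tau c X = C (c : F) * X := by rw [tau_apply, X_comp]

theorem scaleRoots_eq (c : Fˣ) (f : F[X]) : f.scaleRoots c = C ((c : F) ^ f.natDegree) * tau c⁻¹ f := by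
  ext i
  rw [coeff_scaleRoots, coeff_C_mul, tau_apply, comp_C_mul_X_coeff]
  rcases Nat.lt_or_ge f.natDegree i with h | h
  · rw [coeff_eq_zero_of_natDegree_lt h]; ring
  · have : (c : F) ^ f.natDegree = (c : F) ^ (f.natDegree - i) * (c : F) ^ i := by rw [← pow_add]; congr 1; omega
    rw [this]
    have h2 : (c : F) ^ i * ((c⁻¹ : Fˣ) : F) ^ i = 1 := by rw [← mul_pow, Units.mul_inv, one_pow]
    calc f.coeff i * (c : F) ^ (f.natDegree - i) = (c : F) ^ (f.natDegree - i) * (f.coeff i * 1) := by ring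
      _ = _ := by rw [← h2]; ring

theorem scaleRoots_assoc (c : Fˣ) (f : F[X]) : Associated (tau c⁻¹ f) (f.scaleRoots c) := by
  rw [scaleRoots_eq, mul_comm]
  refine ⟨(isUnit_C.2 ((c.isUnit).pow f.natDegree)).unit, rfl⟩

theorem scaleRoots_irr (c : Fˣ) {f : F[X]} (h : Irreducible f) : Irreducible (f.scaleRoots (c : F)) :=
  (scaleRoots_assoc c f).irreducible ((MulEquiv.irreducible_iff (tau c⁻¹)).2 h)

theorem Dec.scale {V : Type*} [AddCommGroup V] [Module F V] {a : Module.End F V} {ι : Type*} [Fintype ι] {p : ι → F[X]} {e : ι → ℕ}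
    (D : Dec a ι p e) (c : Fˣ) : Dec ((c : F) • a) ι (fun j => (p j).scaleRoots (c : F)) e := by
  obtain ⟨φ, hφ⟩ := D.iso
  refine ⟨fun j => scaleRoots_irr c (D.irr j), fun j => (monic_scaleRoots_iff _).2 (D.mon j), D.pos, ?_⟩
  have hI : ∀ j, Ideal.span {(p j).scaleRoots (c : F) ^ e j} = (Ideal.span {p j ^ e j}).map ((tau c⁻¹ : F[X] ≃ₐ[F] F[X]) : F[X] →+* F[X]) := by
    intro j
    rw [Ideal.map_span, Set.image_singleton]
    have h1 : ((tau c⁻¹ : F[X] ≃ₐ[F] F[X]) : F[X] →+* F[X]) (p j ^ e j) = (tau c⁻¹ (p j)) ^ e j := map_pow (tau c⁻¹) _ _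
    rw [h1]
    exact (span_eq_of_assoc (((scaleRoots_assoc c (p j)).pow_pow (n := e j)))).symm
  let ρ : ∀ j, Q (p j ^ e j) ≃ₗ[F] Q ((p j).scaleRoots (c : F) ^ e j) := fun j =>
    (Ideal.quotientEquivAlg (Ideal.span {p j ^ e j}) (Ideal.span {(p j).scaleRoots (c : F) ^ e j}) (tau c⁻¹) (hI j)).toLinearEquiv
  have hρ : ∀ j x, ρ j ((X : F[X]) • x) = C ((c⁻¹ : Fˣ) : F) • (X : F[X]) • ρ j x := by
    intro j x
    obtain ⟨y, rfl⟩ := Ideal.Quotient.mk_surjective x
    change Ideal.Quotient.mk _ (tau c⁻¹ (X * y)) = Ideal.Quotient.mk _ (C ((c⁻¹ : Fˣ) : F) * (X * tau c⁻¹ y))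
    rw [map_mul, tau_X]
    congr 1
    ring
  refine ⟨φ.trans (LinearEquiv.piCongrRight ρ), fun v => ?_⟩
  funext j
  change ρ j (φ (((c : F) • a) v) j) = (X : F[X]) • ρ j (φ v j)
  rw [LinearMap.smul_apply, map_smul, hφ, Pi.smul_apply, map_smul, Pi.smul_apply, hρ]
  have h3 : ∀ y : Q ((p j).scaleRoots (c : F) ^ e j), (c : F) • C ((c⁻¹ : Fˣ) : F) • y = y := by
    intro y
    rw [← algebraMap_smul F[X] (c : F), smul_smul, algebraMap_eq, ← C_mul, Units.mul_inv, C_1, one_smul]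
  exact h3 _

/-- scaling of types -/
noncomputable def scaleT (c : Fˣ) (T : Multiset (F[X] × ℕ)) : Multiset (F[X] × ℕ) := T.map (fun t => (t.1.scaleRoots (c : F), t.2))

theorem HasType.scale {V : Type*} [AddCommGroup V] [Module F V] {a : Module.End F V} {T : Multiset (F[X] × ℕ)} (h : HasType a T) (c : Fˣ) :
    HasType ((c : F) • a) (scaleT c T) := by
  obtain ⟨k, p, e, D, rfl⟩ := h
  refine ⟨k, _, e, D.scale c, ?_⟩
  unfold scaleT
  rw [Multiset.map_map]; rfl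

theorem MT_scale {n : ℕ} {A : Matrix (Fin n) (Fin n) F} {T : Multiset (F[X] × ℕ)} (h : MT A T) (c : Fˣ) : MT ((c : F) • A) (scaleT c T) := by
  have := HasType.scale h c
  rwa [← map_smul] at this

theorem X_sub_C_scaleRoots (c : Fˣ) (x : F) : (X - C x).scaleRoots (c : F) = X - C (c * x) := by
  rw [scaleRoots_eq, natDegree_X_sub_C, tau_apply, sub_comp, X_comp, C_comp, pow_one, mul_sub, ← mul_assoc, ← C_mul, Units.mul_inv, C_1, one_mul, C_mul]

/-- scalar matrices -/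
noncomputable def sc (n : ℕ) (c : Fˣ) : GL (Fin n) F := Matrix.GeneralLinearGroup.scalar (Fin n) c

theorem sc_val (n : ℕ) (c : Fˣ) : (sc n c : Matrix (Fin n) (Fin n) F) = (c : F) • (1 : Matrix (Fin n) (Fin n) F) := by
  have : (sc n c : Matrix (Fin n) (Fin n) F) = Matrix.scalar (Fin n) (c : F) := rfl
  rw [this]
  ext i j
  simp [Matrix.scalar_apply, Matrix.one_apply, Matrix.diagonal_apply]

theorem mem_center_iff' {n : ℕ} (g : GL (Fin n) F) : g ∈ Subgroup.center (GL (Fin n) F) ↔ ∃ c : Fˣ, g = sc n c := by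
  rw [Matrix.GeneralLinearGroup.center_eq_range_scalar, MonoidHom.mem_range]
  constructor
  · rintro ⟨c, rfl⟩; exact ⟨c, rfl⟩
  · rintro ⟨c, rfl⟩; exact ⟨c, rfl⟩

theorem sc_mul_val {n : ℕ} (c : Fˣ) (g : GL (Fin n) F) : ((sc n c * g : GL (Fin n) F) : Matrix (Fin n) (Fin n) F) = (c : F) • (g : Matrix (Fin n) (Fin n) F) := by
  rw [Units.val_mul, sc_val, Matrix.smul_mul, Matrix.one_mul]

theorem pgl_conj {n : ℕ} (g h : GL (Fin n) F) :
    IsConj (QuotientGroup.mk g : GL (Fin n) F ⧸ Subgroup.center (GL (Fin n) F)) (QuotientGroup.mk h) ↔ ∃ c : Fˣ, IsConj g (sc n c * h) := by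
  constructor
  · intro hc
    obtain ⟨x, hx⟩ := isConj_iff.1 hc
    obtain ⟨y, rfl⟩ := QuotientGroup.mk_surjective x
    have h1 : ((y * g * y⁻¹ : GL (Fin n) F) : GL (Fin n) F ⧸ Subgroup.center (GL (Fin n) F)) = (h : GL (Fin n) F ⧸ Subgroup.center (GL (Fin n) F)) := hx
    rw [eq_comm, QuotientGroup.eq] at h1
    obtain ⟨c, hc⟩ := (mem_center_iff' _).1 h1
    refine ⟨c, isConj_iff.2 ⟨y, ?_⟩⟩
    have h2 : y * g * y⁻¹ = h * sc n c := by rw [← hc]; group
    rw [h2]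
    have h3 : sc n c ∈ Subgroup.center (GL (Fin n) F) := (mem_center_iff' _).2 ⟨c, rfl⟩
    exact Subgroup.mem_center_iff.1 h3 h
  · rintro ⟨c, hc⟩
    obtain ⟨y, hy⟩ := isConj_iff.1 hc
    rw [isConj_iff]
    refine ⟨QuotientGroup.mk y, ?_⟩
    have h1 : ((y * g * y⁻¹ : GL (Fin n) F) : GL (Fin n) F ⧸ Subgroup.center (GL (Fin n) F)) = (h : GL (Fin n) F ⧸ Subgroup.center (GL (Fin n) F)) := by
      rw [hy, eq_comm, QuotientGroup.eq]
      have h3 : sc n c ∈ Subgroup.center (GL (Fin n) F) := (mem_center_iff' _).2 ⟨c, rfl⟩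
      have : h⁻¹ * (sc n c * h) = sc n c := by
        rw [← Subgroup.mem_center_iff.1 h3 h]; group
      rw [this]; exact h3
    exact h1

end Cfsg.Agent.H15.RC
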