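import Mathlib
import Cfsg.Agent.H15_RC7

set_option autoImplicit false
set_option linter.all false
open Polynomial Module Matrix UniqueFactorizationMonoid

namespace Cfsg.Agent.H15.RC

universe u
variable {F : Type u} [Field F]

/-! ### multisets over a group of prime order -/
section burn
variable {μ : Type*} [CommGroup μ] [Finite μ]

/-- non-constant multisets of size n -/
def Yn (μ : Type*) (n : ℕ) : Type _ := {M : Multiset μ // Multiset.card M = n ∧ ¬ ∃ u, M = Multiset.replicate n u}

instance Yact (n : ℕ) : MulAction μ (Yn μ n) where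
  smul w M := ⟨M.1.map (fun u => w * u), by rw [Multiset.card_map]; exact M.2.1, by
    rintro ⟨u, hu⟩
    apply M.2.2
    refine ⟨w⁻¹ * u, ?_⟩
    have h1 := congrArg (Multiset.map (fun u => w⁻¹ * u)) hu
    rw [Multiset.map_map, Multiset.map_replicate] at h1
    rw [← h1]
    conv_lhs => rw [← Multiset.map_id M.1]
    apply Multiset.map_congr rfl
    intro x _
    simp⟩
  one_smul M := Subtype.ext (by
    change M.1.map (fun u => 1 * u) = M.1
    conv_rhs => rw [← Multiset.map_id M.1]
    apply Multiset.map_congr rfl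
    intro x _
    simp)
  mul_smul w v M := Subtype.ext (by
    change M.1.map (fun u => w * v * u) = (M.1.map (fun u => v * u)).map (fun u => w * u)
    rw [Multiset.map_map]
    apply Multiset.map_congr rfl
    intro x _
    simp [mul_assoc])

theorem Yact_val {n : ℕ} (w : μ) (M : Yn μ n) : (w • M).1 = M.1.map (fun u => w * u) := rfl

instance (n : ℕ) : Finite (Yn μ n) := by
  classical
  haveI := Fintype.ofFinite μ
  haveI : Finite (Sym μ n) := inferInstance
  apply Finite.of_injective (β := Sym μ n) (fun M : Yn μ n => (⟨M.1, M.2.1⟩ : Sym μ n))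
  intro M M' h
  exact Subtype.ext (congrArg (fun x : Sym μ n => x.1) h)

theorem card_Yn (n : ℕ) (hn : 1 ≤ n) : Nat.card (Yn μ n) + Nat.card μ = Nat.choose (n + Nat.card μ - 1) (Nat.card μ - 1) := by
  classical
  have h1 : Nat.card (Sym μ n) = Nat.card (Yn μ n) + Nat.card μ := by
    rw [← Nat.card_sum]
    apply Nat.card_congr
    symm
    refine Equiv.ofBijective (fun x => Sum.elim (fun M : Yn μ n => (⟨M.1, M.2.1⟩ : Sym μ n)) (fun u => ⟨Multiset.replicate n u, Multiset.card_replicate n u⟩) x) ⟨?_, ?_⟩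
    · rintro (M | u) (M' | u') h
      · exact congrArg Sum.inl (Subtype.ext (congrArg (fun x : Sym μ n => x.1) h))
      · exact absurd ⟨u', congrArg (fun x : Sym μ n => x.1) h⟩ M.2.2
      · exact absurd ⟨u, (congrArg (fun x : Sym μ n => x.1) h).symm⟩ M'.2.2
      · have h1 : Multiset.replicate n u = Multiset.replicate n u' := congrArg (fun x : Sym μ n => x.1) h
        have h2 : u ∈ Multiset.replicate n u' := by rw [← h1]; exact Multiset.mem_replicate.2 ⟨by omega, rfl⟩
        rw [(Multiset.mem_replicate.1 h2).2]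
    · rintro ⟨M, hM⟩
      by_cases h : ∃ u, M = Multiset.replicate n u
      · obtain ⟨u, rfl⟩ := h
        exact ⟨Sum.inr u, rfl⟩
      · exact ⟨Sum.inl ⟨M, hM, h⟩, rfl⟩
  rw [← h1, Sym.natCard_sym_eq_choose]
  have hpos : 0 < Nat.card μ := Nat.card_pos
  have e1 : Nat.card μ + n - 1 = n + Nat.card μ - 1 := by omega
  rw [e1]
  apply Nat.choose_symm_of_eq_add
  omega

theorem fixed_iff {n r : ℕ} (hr : r.Prime) (hμ : Nat.card μ = r) (hn : 1 ≤ n) (w : μ) (hw : w ≠ 1) :
    Nat.card (MulAction.fixedBy (Yn μ n) w) = if r ∣ n then 1 else 0 := by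
  classical
  haveI := Fintype.ofFinite μ
  haveI := Fact.mk hr
  have hgen : ∀ x : μ, ∃ j : ℕ, w ^ j = x := by
    intro x
    have h1 : x ∈ Subgroup.zpowers w := mem_zpowers_of_prime_card hμ hw
    obtain ⟨j, hj⟩ := (mem_zpowers_iff_mem_range_orderOf.1 h1 : _)
      |> Finset.mem_image.1
    exact ⟨j, hj.2⟩
  have key : ∀ M : Yn μ n, w • M = M → M.1 = (Multiset.count 1 M.1) • (Finset.univ : Finset μ).val := by
    intro M hM
    have h1 : M.1.map (fun u => w * u) = M.1 := by rw [← Yact_val, hM]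
    have h2 : ∀ u, Multiset.count (w * u) M.1 = Multiset.count u M.1 := by
      intro u
      conv_lhs => rw [← h1]
      exact Multiset.count_map_eq_count' _ _ (mul_right_injective w) u
    have h3 : ∀ j : ℕ, Multiset.count (w ^ j) M.1 = Multiset.count 1 M.1 := by
      intro j
      induction j with
      | zero => rw [pow_zero]
      | succ j ih => rw [pow_succ', h2, ih]
    ext x
    obtain ⟨j, rfl⟩ := hgen x
    rw [h3, Multiset.count_nsmul, Multiset.count_eq_one_of_mem (Finset.univ.nodup) (Finset.mem_univ _), mul_one]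
  have key2 : ∀ M : Yn μ n, w • M = M → Multiset.count 1 M.1 * r = n := by
    intro M hM
    have h1 := congrArg Multiset.card (key M hM)
    rw [M.2.1, Multiset.card_nsmul, Finset.card_val, Finset.card_univ, ← Nat.card_eq_fintype_card, hμ] at h1
    exact h1.symm
  split_ifs with hd
  · obtain ⟨k, hk⟩ := hd
    rw [Nat.card_eq_one_iff_unique]
    constructor
    · constructor
      rintro ⟨M, hM⟩ ⟨M', hM'⟩
      apply Subtype.ext
      apply Subtype.ext
      have h1 := key2 M hM
      have h2 := key2 M' hM'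
      change M.1 = M'.1
      rw [key M hM, key M' hM', Nat.eq_of_mul_eq_mul_right hr.pos (h1.trans h2.symm)]
    · have hk0 : 0 < k := by
        rcases Nat.eq_zero_or_pos k with h | h
        · rw [h] at hk; omega
        · exact h
      have hcard : Multiset.card (k • (Finset.univ : Finset μ).val) = n := by
        rw [Multiset.card_nsmul, Finset.card_val, Finset.card_univ, ← Nat.card_eq_fintype_card, hμ, hk, mul_comm]
      refine ⟨⟨⟨k • (Finset.univ : Finset μ).val, hcard, ?_⟩, ?_⟩⟩
      · rintro ⟨u, hu⟩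
        have h1 : ∀ x : μ, x ∈ k • (Finset.univ : Finset μ).val := by
          intro x
          rw [Multiset.mem_nsmul]
          exact ⟨hk0.ne', Finset.mem_univ x⟩
        have h2 := h1 (w * u)
        rw [hu, Multiset.mem_replicate] at h2
        exact hw (mul_eq_right.1 h2.2)
      · change w • _ = _
        apply Subtype.ext
        change Multiset.map (fun u => w * u) (k • (Finset.univ : Finset μ).val) = k • (Finset.univ : Finset μ).val
        rw [Multiset.map_nsmul]
        congr 1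
        ext x
        rw [Multiset.count_eq_one_of_mem Finset.univ.nodup (Finset.mem_univ _)]
        have : x = (fun u => w * u) (w⁻¹ * x) := by simp
        rw [this, Multiset.count_map_eq_count' _ _ (mul_right_injective w), Multiset.count_eq_one_of_mem Finset.univ.nodup (Finset.mem_univ _)]
  · rw [Nat.card_eq_zero]
    left
    constructor
    rintro ⟨M, hM⟩
    exact hd ⟨_, (key2 M hM).symm.trans (mul_comm _ _)⟩

theorem card_orbits {n r : ℕ} (hr : r.Prime) (hμ : Nat.card μ = r) (hn : 1 ≤ n) :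
    Nat.card (MulAction.orbitRel.Quotient μ (Yn μ n)) * r = Nat.card (Yn μ n) + (r - 1) * (if r ∣ n then 1 else 0) := by
  classical
  haveI := Fintype.ofFinite μ
  haveI := Fintype.ofFinite (Yn μ n)
  haveI := Fintype.ofFinite (MulAction.orbitRel.Quotient μ (Yn μ n))
  have h := MulAction.sum_card_fixedBy_eq_card_orbits_mul_card_group μ (Yn μ n)
  rw [← Nat.card_eq_fintype_card (α := μ), hμ, ← Nat.card_eq_fintype_card (α := MulAction.orbitRel.Quotient μ (Yn μ n))] at h
  rw [← h]
  have h1 : ∀ w : μ, Fintype.card (MulAction.fixedBy (Yn μ n) w) = if w = 1 then Nat.card (Yn μ n) else (if r ∣ n then 1 else 0) := by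
    intro w
    rw [← Nat.card_eq_fintype_card]
    split_ifs with h1 h2
    · subst h1
      apply Nat.card_congr
      exact Equiv.subtypeUnivEquiv (fun M => one_smul μ M)
    · rw [fixed_iff hr hμ hn w h1, if_pos h2]
    · rw [fixed_iff hr hμ hn w h1, if_neg h2]
  rw [Finset.sum_congr rfl (fun w _ => h1 w), Finset.sum_ite, Finset.filter_eq' Finset.univ (1 : μ), if_pos (Finset.mem_univ _), Finset.sum_singleton, Finset.sum_const, smul_eq_mul]
  congr 2
  rw [Finset.filter_ne', Finset.card_erase_of_mem (Finset.mem_univ _), Finset.card_univ, ← Nat.card_eq_fintype_card, hμ]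

end burn


section pgl
variable [Fintype F]

/-- the projective general linear group -/
abbrev PG (n : ℕ) (F : Type u) [Field F] := GL (Fin n) F ⧸ Subgroup.center (GL (Fin n) F)

/-- type attached to a multiset of roots of unity -/
noncomputable def TM {r : ℕ} (M : Multiset (rootsOfUnity r F)) : Multiset (F[X] × ℕ) := M.map (fun u : rootsOfUnity r F => (X - C ((u : Fˣ) : F), 1))

theorem TM_inj {r : ℕ} : Function.Injective (TM (F := F) (r := r)) := by
  apply Multiset.map_injective
  intro u v h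
  have h1 : X - C ((u : Fˣ) : F) = X - C ((v : Fˣ) : F) := congrArg Prod.fst h
  have h2 := sub_right_injective h1
  exact Subtype.ext (Units.ext (C_injective h2))

theorem TM_adm {r n : ℕ} (M : Multiset (rootsOfUnity r F)) (h : Multiset.card M = n) : Adm n (TM M) := by
  refine ⟨?_, ?_, ?_⟩
  · intro t ht
    obtain ⟨u, -, rfl⟩ := Multiset.mem_map.1 ht
    exact ⟨irreducible_X_sub_C _, monic_X_sub_C _, le_rfl⟩
  · unfold size TM
    rw [Multiset.map_map, ← h]
    have : M.map ((fun t : F[X] × ℕ => t.2 * t.1.natDegree) ∘ fun u : rootsOfUnity r F => (X - C ((u : Fˣ) : F), 1)) = M.map (fun _ => 1) := by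
      apply Multiset.map_congr rfl
      intro u _
      simp only [Function.comp_apply, natDegree_X_sub_C, mul_one]
    rw [this, Multiset.map_const', Multiset.sum_replicate, smul_eq_mul, mul_one]
  · intro t ht
    obtain ⟨u, -, rfl⟩ := Multiset.mem_map.1 ht
    intro h1
    have := congrArg (eval 0) h1
    simp only [eval_sub, eval_X, eval_C, zero_sub, neg_eq_zero] at this
    exact Units.ne_zero _ this

theorem TM_scale {r : ℕ} (M : Multiset (rootsOfUnity r F)) (w : rootsOfUnity r F) : scaleT (w : Fˣ) (TM M) = TM (M.map (fun u => w * u)) := by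
  unfold scaleT TM
  rw [Multiset.map_map, Multiset.map_map]
  apply Multiset.map_congr rfl
  intro u _
  simp only [Function.comp_apply]
  rw [X_sub_C_scaleRoots]
  rfl

theorem pow_dvd_X_pow_sub_one {r : ℕ} (hr : r.Prime) (hrF : (r : F) ≠ 0) (hζ : ∃ ζ : F, IsPrimitiveRoot ζ r) {P : F[X]} (hP : Irreducible P) (hPm : P.Monic) {j : ℕ} (hj : 1 ≤ j) :
    P ^ j ∣ X ^ r - 1 ↔ j = 1 ∧ ∃ u : rootsOfUnity r F, P = X - C ((u : Fˣ) : F) := by
  classical
  have hsq : Squarefree (X ^ r - 1 : F[X]) := (X_pow_sub_one_separable_iff.2 hrF).squarefree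
  constructor
  · intro h
    have h1 : P ∣ X ^ r - 1 := (dvd_pow_self P (by omega)).trans h
    refine ⟨?_, ?_⟩
    · by_contra hj1
      have : P * P ∣ X ^ r - 1 := by
        rw [← pow_two]; exact (pow_dvd_pow P (by omega)).trans h
      exact hP.not_isUnit (hsq _ this)
    · obtain ⟨ζ, hζ⟩ := hζ
      rw [X_pow_sub_one_eq_prod hr.pos hζ] at h1
      obtain ⟨x, hx, hxP⟩ := (Prime.dvd_finset_prod_iff hP.prime _).1 h1
      have h2 : P = X - C x := eq_of_monic_of_associated hPm (monic_X_sub_C x) (hP.associated_of_dvd (irreducible_X_sub_C x) hxP)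
      have h3 : x ^ r = 1 := (mem_nthRootsFinset hr.pos (1 : F)).1 hx
      have hx0 : x ≠ 0 := by rintro rfl; rw [zero_pow hr.ne_zero] at h3; exact zero_ne_one h3
      refine ⟨⟨Units.mk0 x hx0, ?_⟩, h2⟩
      rw [mem_rootsOfUnity]
      exact Units.ext h3
  · rintro ⟨rfl, u, rfl⟩
    rw [pow_one, dvd_iff_isRoot]
    have h1 : ((u : Fˣ) : F) ^ r = 1 := by
      have := (mem_rootsOfUnity r (u : Fˣ)).1 u.2
      exact congrArg Units.val this
    simp [h1]

theorem pow_eq_one_iff {n r : ℕ} (hr : r.Prime) (hrF : (r : F) ≠ 0) (hζ : ∃ ζ : F, IsPrimitiveRoot ζ r) (g : GL (Fin n) F) {T : Multiset (F[X] × ℕ)}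
    (hT : MT (g : Matrix (Fin n) (Fin n) F) T) : g ^ r = 1 ↔ ∃ M : Multiset (rootsOfUnity r F), T = TM M ∧ Multiset.card M = n := by
  have hv := hT.valid
  have h3 := MT_aeval hT (X ^ r - 1)
  rw [map_sub, map_pow, aeval_X, map_one, sub_eq_zero] at h3
  have h4 : g ^ r = 1 ↔ (g : Matrix (Fin n) (Fin n) F) ^ r = 1 := by
    rw [Units.ext_iff]; rfl
  rw [h4, h3]
  constructor
  · intro h
    obtain ⟨M, hM⟩ := exists_map_eq (fun u : rootsOfUnity r F => ((X - C ((u : Fˣ) : F) : F[X]), 1)) T (by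
      intro t ht
      obtain ⟨h5, u, hu⟩ := (pow_dvd_X_pow_sub_one hr hrF hζ (hv t ht).1 (hv t ht).2.1 (hv t ht).2.2).1 (h t ht)
      exact ⟨u, Prod.ext hu.symm h5.symm⟩)
    refine ⟨M, hM.symm, ?_⟩
    have h5 : size (TM M) = n := by
      have : TM M = T := hM
      rw [this, hT.size_eq, finrank_fin_fun]
    rw [← h5]; exact (TM_adm M rfl).2.1.symm
  · rintro ⟨M, rfl, hM⟩ t ht
    obtain ⟨u, -, rfl⟩ := Multiset.mem_map.1 ht
    exact (pow_dvd_X_pow_sub_one hr hrF hζ (irreducible_X_sub_C _) (monic_X_sub_C _) le_rfl).2 ⟨rfl, u, rfl⟩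

theorem sc_pow {n : ℕ} (c : Fˣ) (r : ℕ) : (sc n c : GL (Fin n) F) ^ r = sc n (c ^ r) := (map_pow (Matrix.GeneralLinearGroup.scalar (Fin n)) c r).symm

theorem sc_mul_pow {n : ℕ} (c : Fˣ) (g : GL (Fin n) F) (r : ℕ) : (sc n c * g) ^ r = sc n (c ^ r) * g ^ r := by
  have h3 : sc n c ∈ Subgroup.center (GL (Fin n) F) := (mem_center_iff' _).2 ⟨c, rfl⟩
  rw [(Commute.mul_pow (show Commute (sc n c) g from (Subgroup.mem_center_iff.1 h3 g).symm) r), sc_pow]

theorem sc_inj {n : ℕ} (hn : 1 ≤ n) : Function.Injective (sc (F := F) n) := by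
  intro c d h
  have h1 := congrArg (fun g : GL (Fin n) F => (g : Matrix (Fin n) (Fin n) F) ⟨0, hn⟩ ⟨0, hn⟩) h
  simp only [sc_val, Matrix.smul_apply, Matrix.one_apply_eq, smul_eq_mul, mul_one] at h1
  exact Units.ext h1

theorem sc_one {n : ℕ} : sc (F := F) n 1 = 1 := map_one _

/-- scalars have constant type -/
theorem TM_center {n r : ℕ} (hn : 1 ≤ n) (g : GL (Fin n) F) {M : Multiset (rootsOfUnity r F)} (hM : Multiset.card M = n) (hT : MT (g : Matrix (Fin n) (Fin n) F) (TM M)) :
    g ∈ Subgroup.center (GL (Fin n) F) ↔ ∃ u, M = Multiset.replicate n u := by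
  have key : ∀ u : rootsOfUnity r F, MT ((sc n (u : Fˣ) : GL (Fin n) F) : Matrix (Fin n) (Fin n) F) (TM (Multiset.replicate n u)) := by
    intro u
    obtain ⟨g0, hg0⟩ := exists_of_adm (TM_adm (Multiset.replicate n u) (Multiset.card_replicate n u))
    have h1 := MT_aeval hg0 (X - C ((u : Fˣ) : F))
    rw [map_sub, aeval_X, aeval_C, sub_eq_zero] at h1
    have h2 : (g0 : Matrix (Fin n) (Fin n) F) = algebraMap F (Matrix (Fin n) (Fin n) F) ((u : Fˣ) : F) := by
      rw [h1]
      intro t ht
      unfold TM at ht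
      rw [Multiset.map_replicate, Multiset.mem_replicate] at ht
      rw [ht.2, pow_one]
    have h3 : g0 = sc n (u : Fˣ) := by
      apply Units.ext
      rw [h2, sc_val, Algebra.algebraMap_eq_smul_one]
    rw [← h3]; exact hg0
  rw [mem_center_iff']
  constructor
  · rintro ⟨c, rfl⟩
    have hne : M ≠ 0 := by rintro rfl; rw [Multiset.card_zero] at hM; omega
    obtain ⟨u, hu⟩ := Multiset.exists_mem_of_ne_zero hne
    refine ⟨u, ?_⟩
    -- c = u since X - c kills
    rw [Multiset.eq_replicate]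
    refine ⟨hM, ?_⟩
    have h1 := MT_aeval hT (X - C (c : F))
    rw [map_sub, aeval_X, aeval_C, sub_eq_zero] at h1
    have h2 : ((sc n c : GL (Fin n) F) : Matrix (Fin n) (Fin n) F) = algebraMap F (Matrix (Fin n) (Fin n) F) (c : F) := by
      rw [sc_val, Algebra.algebraMap_eq_smul_one]
    have h3 := h1.1 h2
    have h4 : ∀ b ∈ M, ((b : Fˣ) : F) = c := by
      intro b hb
      have h5 := h3 (X - C ((b : Fˣ) : F), 1) (Multiset.mem_map_of_mem _ hb)
      simp only [pow_one] at h5
      have h6 := eq_of_monic_of_associated (monic_X_sub_C _) (monic_X_sub_C _) ((irreducible_X_sub_C ((b : Fˣ) : F)).associated_of_dvd (irreducible_X_sub_C (c : F)) h5)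
      exact C_injective (sub_right_injective h6)
    intro b hb
    apply Subtype.ext; apply Units.ext
    rw [h4 b hb, h4 u hu]
  · rintro ⟨u, rfl⟩
    refine ⟨(u : Fˣ), ?_⟩
    have h1 := (isConj_iff_type g (sc n (u : Fˣ)) hT (key u)).2 rfl
    obtain ⟨c, hc⟩ := isConj_iff.1 h1
    have h3 : sc n (u : Fˣ) ∈ Subgroup.center (GL (Fin n) F) := (mem_center_iff' _).2 ⟨_, rfl⟩
    have h4 : g = c⁻¹ * sc n (u : Fˣ) * c := by rw [← hc]; group
    rw [h4, mul_assoc, ← Subgroup.mem_center_iff.1 h3 c]; group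

/-- classes with a lift of order r -/
def W1 (n r : ℕ) (F : Type u) [Field F] : Type u := {C : ConjClasses (PG n F) // ∃ g : GL (Fin n) F, ConjClasses.mk (QuotientGroup.mk g : PG n F) = C ∧ g ^ r = 1 ∧ g ∉ Subgroup.center (GL (Fin n) F)}

theorem card_W1 {n r : ℕ} (hn : 1 ≤ n) (hr : r.Prime) (hrF : (r : F) ≠ 0) (hζ : ∃ ζ : F, IsPrimitiveRoot ζ r) :
    Nat.card (W1 n r F) = Nat.card (MulAction.orbitRel.Quotient (rootsOfUnity r F) (Yn (rootsOfUnity r F) n)) := by
  classical
  choose gg hgg using fun M : Yn (rootsOfUnity r F) n => exists_of_adm (TM_adm M.1 M.2.1)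
  have hpow : ∀ M, gg M ^ r = 1 := fun M => (pow_eq_one_iff hr hrF hζ _ (hgg M)).2 ⟨M.1, rfl, M.2.1⟩
  have hnc : ∀ M, gg M ∉ Subgroup.center (GL (Fin n) F) := fun M h => M.2.2 ((TM_center hn _ M.2.1 (hgg M)).1 h)
  let f : Yn (rootsOfUnity r F) n → W1 n r F := fun M => ⟨ConjClasses.mk (QuotientGroup.mk (gg M)), gg M, rfl, hpow M, hnc M⟩
  have hf : ∀ M M', f M = f M' ↔ (MulAction.orbitRel (rootsOfUnity r F) (Yn (rootsOfUnity r F) n)).r M M' := by
    intro M M'
    have h1 : f M = f M' ↔ IsConj (QuotientGroup.mk (gg M) : PG n F) (QuotientGroup.mk (gg M')) := by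
      rw [← ConjClasses.mk_eq_mk_iff_isConj]
      exact ⟨fun h => congrArg Subtype.val h, fun h => Subtype.ext h⟩
    rw [h1, pgl_conj]
    constructor
    · rintro ⟨c, hc⟩
      have hcr : c ^ r = 1 := by
        obtain ⟨y, hy⟩ := isConj_iff.1 hc
        have h2 : (sc n c * gg M') ^ r = 1 := by rw [← hy, conj_pow, hpow]; group
        rw [sc_mul_pow, hpow, mul_one] at h2
        exact sc_inj hn (h2.trans sc_one.symm)
      have h3 := (isConj_iff_type _ _ (hgg M) (by rw [sc_mul_val]; exact MT_scale (hgg M') c)).1 hc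
      let w : rootsOfUnity r F := ⟨c, (mem_rootsOfUnity r c).2 hcr⟩
      refine ⟨w, ?_⟩
      apply Subtype.ext
      change M'.1.map (fun u => w * u) = M.1
      apply TM_inj
      rw [← TM_scale, h3]
    · rintro ⟨w, hw⟩
      refine ⟨(w : Fˣ), ?_⟩
      rw [isConj_iff_type _ _ (hgg M) (by rw [sc_mul_val]; exact MT_scale (hgg M') (w : Fˣ)), TM_scale]
      congr 1
      exact (congrArg Subtype.val hw).symm
  have hsurj : Function.Surjective f := by
    rintro ⟨C, g, hC, hg1, hg2⟩
    obtain ⟨T, hT⟩ := exists_type (Matrix.toLin' (g : Matrix (Fin n) (Fin n) F) : Module.End F (Fin n → F))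
    obtain ⟨M, rfl, hM⟩ := (pow_eq_one_iff hr hrF hζ g hT).1 hg1
    have hMc : ¬ ∃ u, M = Multiset.replicate n u := fun h => hg2 ((TM_center hn g hM hT).2 h)
    refine ⟨⟨M, hM, hMc⟩, ?_⟩
    apply Subtype.ext
    change ConjClasses.mk (QuotientGroup.mk (gg ⟨M, hM, hMc⟩)) = C
    rw [← hC, ConjClasses.mk_eq_mk_iff_isConj, pgl_conj]
    refine ⟨1, ?_⟩
    rw [sc_one, one_mul]
    exact (isConj_iff_type _ _ (hgg ⟨M, hM, hMc⟩) hT).2 rfl
  symm
  apply Nat.card_congr
  refine Equiv.ofBijective (Quotient.lift f (fun a b h => (hf a b).2 h)) ⟨?_, ?_⟩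
  · intro a b
    refine Quotient.inductionOn₂ a b (fun a b h => Quotient.sound ((hf a b).1 h))
  · intro C
    obtain ⟨M, hM⟩ := hsurj C
    exact ⟨Quotient.mk _ M, hM⟩

end pgl

end Cfsg.Agent.H15.RC
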