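import Mathlib
import Cfsg.Agent.H15_RC8

set_option autoImplicit false
set_option linter.all false
open Polynomial Module Matrix UniqueFactorizationMonoid

namespace Cfsg.Agent.H15.RC

universe u
variable {F : Type u} [Field F] [Fintype F]

/-- classes whose lifts have r-th power a scalar which is not an r-th power -/
def W2 (n r : ℕ) (F : Type u) [Field F] : Type u := {C : ConjClasses (PG n F) // ∃ g : GL (Fin n) F, ConjClasses.mk (QuotientGroup.mk g : PG n F) = C ∧ ∃ c : Fˣ, g ^ r = sc n c ∧ ∀ d : Fˣ, d ^ r ≠ c}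

theorem type_irr {n r : ℕ} (hn : 1 ≤ n) (hr : r.Prime) (g : GL (Fin n) F) (c : Fˣ) (hg : g ^ r = sc n c) (hc : ∀ d : Fˣ, d ^ r ≠ c) :
    ∃ k, n = r * k ∧ MT (g : Matrix (Fin n) (Fin n) F) (Multiset.replicate k (X ^ r - C (c : F), 1)) := by
  have hirr : Irreducible (X ^ r - C (c : F)) := by
    apply X_pow_sub_C_irreducible_of_prime hr
    intro b hb
    have hb0 : b ≠ 0 := by rintro rfl; rw [zero_pow hr.ne_zero] at hb; exact c.ne_zero hb.symm
    exact hc (Units.mk0 b hb0) (Units.ext hb)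
  have hmon : (X ^ r - C (c : F)).Monic := monic_X_pow_sub_C _ hr.ne_zero
  obtain ⟨T, hT⟩ := exists_type (Matrix.toLin' (g : Matrix (Fin n) (Fin n) F) : Module.End F (Fin n → F))
  have h0 : aeval (g : Matrix (Fin n) (Fin n) F) (X ^ r - C (c : F)) = 0 := by
    rw [map_sub, map_pow, aeval_X, aeval_C, sub_eq_zero, Algebra.algebraMap_eq_smul_one, ← sc_val, ← hg]; rfl
  rw [MT_aeval hT] at h0
  have hv := hT.valid
  have h1 : T = Multiset.replicate (Multiset.card T) (X ^ r - C (c : F), 1) := by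
    rw [Multiset.eq_replicate_card]
    intro t ht
    have h2 := h0 t ht
    have h3 : t.1 = X ^ r - C (c : F) := eq_of_monic_of_associated (hv t ht).2.1 hmon ((hv t ht).1.associated_of_dvd hirr ((dvd_pow_self _ (by have := (hv t ht).2.2; omega)).trans h2))
    have h4 : t.2 = 1 := by
      rw [h3] at h2
      have h5 : (X ^ r - C (c : F)) ^ t.2 ∣ (X ^ r - C (c : F)) ^ 1 := by rw [pow_one]; exact h2
      have := (pow_dvd_pow_iff hirr.ne_zero hirr.not_isUnit).1 h5
      have := (hv t ht).2.2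
      omega
    exact Prod.ext h3 h4
  refine ⟨Multiset.card T, ?_, h1 ▸ hT⟩
  have h2 := hT.size_eq
  rw [finrank_fin_fun, h1] at h2
  unfold size at h2
  rw [Multiset.map_replicate, Multiset.sum_replicate, natDegree_X_pow_sub_C] at h2
  simp only [smul_eq_mul, one_mul, Multiset.card_replicate] at h2
  rw [← h2, mul_comm]

theorem card_W2 {n r : ℕ} (hn : 1 ≤ n) (hr : r.Prime) (hrq : r ∣ Fintype.card F - 1) :
    Nat.card (W2 n r F) = (r - 1) * (if r ∣ n then 1 else 0) := by
  classical
  split_ifs with hd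
  · obtain ⟨k, hk⟩ := hd
    rw [mul_one]
    let R : Subgroup Fˣ := (powMonoidHom r : Fˣ →* Fˣ).range
    have hR : ∀ c : Fˣ, c ∈ R ↔ ∃ d : Fˣ, d ^ r = c := fun c => Iff.rfl
    have hidx : Nat.card (Fˣ ⧸ R) = r := by
      have h1 : R.index = (Nat.card Fˣ).gcd r := IsCyclic.index_powMonoidHom_range (G := Fˣ) r
      have h2 : Nat.card (Fˣ ⧸ R) = R.index := rfl
      rw [h2, h1, Nat.card_eq_fintype_card, Fintype.card_units]
      exact Nat.gcd_eq_right hrq
    choose gg hgg using fun C : W2 n r F => C.2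
    choose cc hcc using fun C => (hgg C).2
    let f : W2 n r F → {x : Fˣ ⧸ R // x ≠ 1} := fun C => ⟨QuotientGroup.mk (cc C), by
      rw [Ne, QuotientGroup.eq_one_iff, hR]
      rintro ⟨d, hd⟩
      exact (hcc C).2 d hd⟩
    have hbij : Function.Bijective f := by
      constructor
      · intro C D hCD
        have h1 : (QuotientGroup.mk (cc C) : Fˣ ⧸ R) = QuotientGroup.mk (cc D) := congrArg Subtype.val hCD
        rw [QuotientGroup.eq, hR] at h1
        obtain ⟨d, hd⟩ := h1
        apply Subtype.ext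
        rw [← (hgg C).1, ← (hgg D).1, ConjClasses.mk_eq_mk_iff_isConj, isConj_comm, pgl_conj]
        refine ⟨d, ?_⟩
        have h2 : (sc n d * gg C) ^ r = sc n (cc D) := by
          rw [sc_mul_pow, (hcc C).1, hd]
          have : sc n ((cc C)⁻¹ * cc D) * sc n (cc C) = sc (F := F) n ((cc C)⁻¹ * cc D * cc C) := (map_mul (Matrix.GeneralLinearGroup.scalar (Fin n)) _ _).symm
          rw [this]; congr 1
          rw [mul_comm, mul_inv_cancel_left]
        obtain ⟨k1, hk1, hT1⟩ := type_irr hn hr _ _ h2 (hcc D).2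
        obtain ⟨k2, hk2, hT2⟩ := type_irr hn hr _ _ (hcc D).1 (hcc D).2
        have h3 : k1 = k2 := Nat.eq_of_mul_eq_mul_left hr.pos (hk1.symm.trans hk2)
        subst h3
        exact (isConj_iff_type _ _ hT2 hT1).2 rfl
      · rintro ⟨x, hx⟩
        obtain ⟨c, rfl⟩ := QuotientGroup.mk_surjective x
        have hc : ∀ d : Fˣ, d ^ r ≠ c := by
          intro d hd
          apply hx
          rw [QuotientGroup.eq_one_iff, hR]
          exact ⟨d, hd⟩
        have hirr : Irreducible (X ^ r - C (c : F)) := by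
          apply X_pow_sub_C_irreducible_of_prime hr
          intro b hb
          have hb0 : b ≠ 0 := by rintro rfl; rw [zero_pow hr.ne_zero] at hb; exact c.ne_zero hb.symm
          exact hc (Units.mk0 b hb0) (Units.ext hb)
        have hadm : Adm n (Multiset.replicate k ((X ^ r - C (c : F)), 1)) := by
          refine ⟨?_, ?_, ?_⟩
          · intro t ht
            rw [(Multiset.mem_replicate.1 ht).2]
            exact ⟨hirr, monic_X_pow_sub_C _ hr.ne_zero, le_rfl⟩
          · unfold size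
            rw [Multiset.map_replicate, Multiset.sum_replicate, natDegree_X_pow_sub_C]
            simp only [smul_eq_mul, one_mul]
            rw [hk, mul_comm]
          · intro t ht
            rw [(Multiset.mem_replicate.1 ht).2]
            intro h1
            have := congrArg (eval 0) h1
            simp [hr.ne_zero] at this
        obtain ⟨g, hg⟩ := exists_of_adm hadm
        have hgr : g ^ r = sc n c := by
          have h0 : aeval (g : Matrix (Fin n) (Fin n) F) (X ^ r - C (c : F)) = 0 := by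
            rw [MT_aeval hg]
            intro t ht
            rw [(Multiset.mem_replicate.1 ht).2, pow_one]
          rw [map_sub, map_pow, aeval_X, aeval_C, sub_eq_zero, Algebra.algebraMap_eq_smul_one, ← sc_val] at h0
          exact Units.ext h0
        let C : W2 n r F := ⟨ConjClasses.mk (QuotientGroup.mk g : PG n F), g, rfl, c, hgr, hc⟩
        refine ⟨C, ?_⟩
        apply Subtype.ext
        change (QuotientGroup.mk (cc C) : Fˣ ⧸ R) = QuotientGroup.mk c
        have h1 : IsConj (QuotientGroup.mk (gg C) : PG n F) (QuotientGroup.mk g) := ConjClasses.mk_eq_mk_iff_isConj.1 (hgg C).1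
        rw [pgl_conj] at h1
        obtain ⟨d, hd⟩ := h1
        obtain ⟨y, hy⟩ := isConj_iff.1 hd
        have h2 : sc n (cc C) = sc n (d ^ r * c) := by
          have h3 : (y * gg C * y⁻¹) ^ r = (sc n d * g) ^ r := by rw [hy]
          rw [conj_pow, (hcc C).1, sc_mul_pow, hgr] at h3
          have h4 : sc n (cc C) ∈ Subgroup.center (GL (Fin n) F) := (mem_center_iff' _).2 ⟨_, rfl⟩
          rw [Subgroup.mem_center_iff.1 h4 y, mul_inv_cancel_right] at h3
          rw [h3]
          exact (map_mul (Matrix.GeneralLinearGroup.scalar (Fin n)) _ _).symm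
        have h5 := sc_inj hn h2
        rw [QuotientGroup.eq, hR]
        refine ⟨d⁻¹, ?_⟩
        rw [h5, inv_pow, mul_inv, mul_assoc, inv_mul_cancel, mul_one]
    rw [Nat.card_congr (Equiv.ofBijective f hbij)]
    haveI := Fintype.ofFinite (Fˣ ⧸ R)
    rw [Nat.card_eq_fintype_card, Fintype.card_subtype_compl, Fintype.card_subtype_eq, ← Nat.card_eq_fintype_card, hidx]
  · rw [mul_zero, Nat.card_eq_zero]
    left
    constructor
    rintro ⟨C, g, hC, c, hg, hc⟩
    obtain ⟨k, hk, -⟩ := type_irr hn hr g c hg hc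
    exact hd ⟨k, hk⟩

theorem main2670 {q : ℕ} (hF : Fintype.card F = q) {n r : ℕ} (hn : 2 ≤ n) (hr : r.Prime) (hrq : r ∣ q - 1) :
    Nat.card {C : ConjClasses (GL (Fin n) F ⧸ Subgroup.center (GL (Fin n) F)) // ∃ g : GL (Fin n) F ⧸ Subgroup.center (GL (Fin n) F), ConjClasses.mk g = C ∧ orderOf g = r} = (Nat.choose (n + r - 1) (r - 1) - r - (if r ∣ n then 1 else 0)) / r + r * (if r ∣ n then 1 else 0) := by
  classical
  subst hF
  have hrc : r ∣ Nat.card Fˣ := by rw [Nat.card_eq_fintype_card, Fintype.card_units]; exact hrq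
  haveI := Fact.mk hr
  haveI : NeZero r := ⟨hr.ne_zero⟩
  obtain ⟨ζ, hζ0⟩ := exists_prime_orderOf_dvd_card' r hrc
  have hζ' : IsPrimitiveRoot ζ r := hζ0 ▸ IsPrimitiveRoot.orderOf ζ
  have hζ : ∃ ζ : F, IsPrimitiveRoot ζ r := ⟨(ζ : F), IsPrimitiveRoot.coe_units_iff.2 hζ'⟩
  have hμ : Nat.card (rootsOfUnity r F) = r := hζ'.card_rootsOfUnity'
  have hrF : (r : F) ≠ 0 := by
    obtain ⟨z, hz⟩ := hζ
    exact (hz.neZero').out
  -- split
  have hsplit : {C : ConjClasses (PG n F) // ∃ g : PG n F, ConjClasses.mk g = C ∧ orderOf g = r} ≃ W1 n r F ⊕ W2 n r F := by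
    have hsc : ∀ g : GL (Fin n) F, (QuotientGroup.mk g : PG n F) = 1 ↔ g ∈ Subgroup.center (GL (Fin n) F) := fun g => QuotientGroup.eq_one_iff g
    have h1 : ∀ C : ConjClasses (PG n F), (∃ g : PG n F, ConjClasses.mk g = C ∧ orderOf g = r) ↔
        ((∃ g : GL (Fin n) F, ConjClasses.mk (QuotientGroup.mk g : PG n F) = C ∧ g ^ r = 1 ∧ g ∉ Subgroup.center (GL (Fin n) F)) ∨
         (∃ g : GL (Fin n) F, ConjClasses.mk (QuotientGroup.mk g : PG n F) = C ∧ ∃ c : Fˣ, g ^ r = sc n c ∧ ∀ d : Fˣ, d ^ r ≠ c)) := by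
      intro C
      constructor
      · rintro ⟨x, rfl, hx⟩
        obtain ⟨g, rfl⟩ := QuotientGroup.mk_surjective x
        have h2 : (QuotientGroup.mk g : PG n F) ^ r = 1 := hx ▸ pow_orderOf_eq_one _
        have h3 : g ^ r ∈ Subgroup.center (GL (Fin n) F) := (hsc _).1 h2
        have h4 : g ∉ Subgroup.center (GL (Fin n) F) := by
          intro h5
          rw [(hsc g).2 h5, orderOf_one] at hx
          exact hr.one_lt.ne hx
        obtain ⟨c, hc⟩ := (mem_center_iff' _).1 h3
        by_cases h5 : ∃ d : Fˣ, d ^ r = c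
        · left
          obtain ⟨d, hd⟩ := h5
          refine ⟨sc n d⁻¹ * g, ?_, ?_, ?_⟩
          · rw [ConjClasses.mk_eq_mk_iff_isConj, pgl_conj]
            exact ⟨d⁻¹, IsConj.refl _⟩
          · rw [sc_mul_pow, hc, ← hd]
            have : sc n ((d⁻¹) ^ r) * sc n (d ^ r) = sc (F := F) n ((d⁻¹) ^ r * d ^ r) := (map_mul (Matrix.GeneralLinearGroup.scalar (Fin n)) _ _).symm
            rw [this, ← mul_pow, inv_mul_cancel, one_pow, sc_one]
          · intro h6
            apply h4
            have h7 : sc n d⁻¹ ∈ Subgroup.center (GL (Fin n) F) := (mem_center_iff' _).2 ⟨_, rfl⟩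
            exact (Subgroup.mul_mem_cancel_left _ h7).1 h6
        · right
          push Not at h5
          exact ⟨g, rfl, c, hc, h5⟩
      · rintro (⟨g, rfl, h2, h3⟩ | ⟨g, rfl, c, h2, h3⟩)
        · refine ⟨QuotientGroup.mk g, rfl, orderOf_eq_prime ?_ (fun h => h3 ((hsc g).1 h))⟩
          rw [← QuotientGroup.mk_pow, h2]; rfl
        · refine ⟨QuotientGroup.mk g, rfl, orderOf_eq_prime ?_ ?_⟩
          · rw [← QuotientGroup.mk_pow, h2]
            exact (hsc _).2 ((mem_center_iff' _).2 ⟨_, rfl⟩)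
          · intro h
            obtain ⟨e, he⟩ := (mem_center_iff' _).1 ((hsc g).1 h)
            rw [he, sc_pow] at h2
            exact h3 e (sc_inj (by omega) h2)
    have hdisj : ∀ C : ConjClasses (PG n F), ¬ ((∃ g : GL (Fin n) F, ConjClasses.mk (QuotientGroup.mk g : PG n F) = C ∧ g ^ r = 1 ∧ g ∉ Subgroup.center (GL (Fin n) F)) ∧
         (∃ g : GL (Fin n) F, ConjClasses.mk (QuotientGroup.mk g : PG n F) = C ∧ ∃ c : Fˣ, g ^ r = sc n c ∧ ∀ d : Fˣ, d ^ r ≠ c)) := by
      rintro C ⟨⟨g, rfl, h2, h3⟩, ⟨h, h4, c, h5, h6⟩⟩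
      rw [ConjClasses.mk_eq_mk_iff_isConj, pgl_conj] at h4
      obtain ⟨e, he⟩ := h4
      obtain ⟨y, hy⟩ := isConj_iff.1 he
      have h7 : (y * h * y⁻¹) ^ r = (sc n e * g) ^ r := by rw [hy]
      rw [conj_pow, h5, sc_mul_pow, h2, mul_one] at h7
      have h8 : sc n c ∈ Subgroup.center (GL (Fin n) F) := (mem_center_iff' _).2 ⟨_, rfl⟩
      rw [Subgroup.mem_center_iff.1 h8 y, mul_inv_cancel_right] at h7
      exact h6 e (sc_inj (by omega) h7.symm)
    exact (Equiv.subtypeEquivRight h1).trans (subtypeOrEquiv _ _ (by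
      rw [Pi.disjoint_iff]
      intro C
      rw [Prop.disjoint_iff]
      exact hdisj C))
  haveI : Finite (W1 n r F) := Subtype.finite
  haveI : Finite (W2 n r F) := Subtype.finite
  rw [Nat.card_congr hsplit, Nat.card_sum, card_W1 (by omega) hr hrF hζ, card_W2 (by omega) hr hrq]
  have hb := card_orbits (μ := rootsOfUnity r F) (n := n) hr hμ (by omega)
  have hy := card_Yn (μ := rootsOfUnity r F) n (by omega)
  rw [hμ] at hy
  set N := Nat.card (MulAction.orbitRel.Quotient (rootsOfUnity r F) (Yn (rootsOfUnity r F) n)) with hN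
  set K := Nat.card (Yn (rootsOfUnity r F) n) with hK
  rw [← hy]
  have hr2 := hr.two_le
  split_ifs at hb ⊢ with hd
  · -- N ≥ 1
    have hN1 : 1 ≤ N := by
      by_contra h
      have : N = 0 := by omega
      rw [this] at hb
      omega
    obtain ⟨m, hm⟩ := Nat.exists_eq_add_of_le' hN1
    have h1 : K + r - r - 1 = m * r := by
      rw [hm] at hb
      have : (m + 1) * r = m * r + r := by ring
      omega
    rw [h1, Nat.mul_div_cancel _ hr.pos, hm]
    omega
  · have h1 : K + r - r - 0 = N * r := by omega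
    rw [h1, Nat.mul_div_cancel _ hr.pos]
    omega

end Cfsg.Agent.H15.RC
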