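import Mathlib
import Cfsg.Agent.H15_RC9
import Cfsg.Agent.H15_RC13

set_option autoImplicit false
set_option linter.all false
open Polynomial Module Matrix UniqueFactorizationMonoid

namespace Cfsg.Agent.H15.RC

universe u
variable {F : Type u} [Field F] {n : ℕ}

/-- data about a subgroup of GL_n whose projective classes are counted -/
structure PGD (n : ℕ) (G : Subgroup (GL (Fin n) F)) (D : Subgroup Fˣ) (r : ℕ) : Prop where
  conj : ∀ g h : G, IsConj g h ↔ IsConj (g : GL (Fin n) F) (h : GL (Fin n) F)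
  cen : ∀ g : G, g ∈ Subgroup.center G ↔ ∃ d : Fˣ, d ∈ D ∧ (g : GL (Fin n) F) = sc n d
  sc_mem : ∀ d ∈ D, sc n d ∈ G
  tm : ∀ M : Multiset (rootsOfUnity r F), Multiset.card M = n → ∃ g : G, MT ((g : GL (Fin n) F) : Matrix (Fin n) (Fin n) F) (TM M)
  rou : ∀ w ∈ rootsOfUnity r F, w ∈ D
  root : ∀ c ∈ D, (∃ d : Fˣ, d ^ r = c) → ∃ d ∈ D, d ^ r = c
  ex : ∀ c ∈ D, (∀ d : Fˣ, d ^ r ≠ c) → ∀ k, n = r * k → ∃ g : G, MT ((g : GL (Fin n) F) : Matrix (Fin n) (Fin n) F) (Multiset.replicate k (X ^ r - C (c : F), 1))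

variable {G : Subgroup (GL (Fin n) F)} {D : Subgroup Fˣ} {r : ℕ}

/-- the projective group -/
abbrev PQ (G : Subgroup (GL (Fin n) F)) := ↥G ⧸ Subgroup.center ↥G

theorem PGD.sc_cen (H : PGD n G D r) {d : Fˣ} (hd : d ∈ D) : (⟨sc n d, H.sc_mem d hd⟩ : G) ∈ Subgroup.center G := (H.cen _).2 ⟨d, hd, rfl⟩

theorem PGD.pconj (H : PGD n G D r) (g h : G) :
    IsConj (QuotientGroup.mk g : PQ G) (QuotientGroup.mk h) ↔ ∃ d ∈ D, IsConj (g : GL (Fin n) F) (sc n d * (h : GL (Fin n) F)) := by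
  constructor
  · intro hc
    obtain ⟨x, hx⟩ := isConj_iff.1 hc
    obtain ⟨y, rfl⟩ := QuotientGroup.mk_surjective x
    have h1 : ((y * g * y⁻¹ : G) : PQ G) = (h : PQ G) := hx
    rw [eq_comm, QuotientGroup.eq] at h1
    obtain ⟨d, hd, hd2⟩ := (H.cen _).1 h1
    refine ⟨d, hd, isConj_iff.2 ⟨y, ?_⟩⟩
    have h2 : (y : GL (Fin n) F) * g * (y : GL (Fin n) F)⁻¹ = h * sc n d := by
      rw [← hd2]
      push_cast
      group
    rw [h2]
    have h3 : sc n d ∈ Subgroup.center (GL (Fin n) F) := (mem_center_iff' _).2 ⟨d, rfl⟩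
    exact Subgroup.mem_center_iff.1 h3 h
  · rintro ⟨d, hd, hc⟩
    have h1 : IsConj g (⟨sc n d, H.sc_mem d hd⟩ * h : G) := (H.conj _ _).2 hc
    have h2 : (QuotientGroup.mk (⟨sc n d, H.sc_mem d hd⟩ * h : G) : PQ G) = QuotientGroup.mk h := by
      rw [eq_comm, QuotientGroup.eq]
      have : h⁻¹ * ((⟨sc n d, H.sc_mem d hd⟩ : G) * h) = (⟨sc n d, H.sc_mem d hd⟩ : G) := by
        rw [← Subgroup.mem_center_iff.1 (H.sc_cen hd) h]; group
      rw [this]; exact H.sc_cen hd
    rw [← h2]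
    exact (QuotientGroup.mk' (Subgroup.center G)).map_isConj h1

variable [Fintype F]

theorem MT_sc {r : ℕ} (u : rootsOfUnity r F) : MT ((sc n (u : Fˣ) : GL (Fin n) F) : Matrix (Fin n) (Fin n) F) (TM (Multiset.replicate n u)) := by
  obtain ⟨g0, hg0⟩ := exists_of_adm (TM_adm (Multiset.replicate n u) (Multiset.card_replicate n u))
  have h1 := MT_aeval hg0 (X - C ((u : Fˣ) : F))
  rw [map_sub, aeval_X, aeval_C, sub_eq_zero] at h1
  have h2 : (g0 : Matrix (Fin n) (Fin n) F) = algebraMap F (Matrix (Fin n) (Fin n) F) ((u : Fˣ) : F) := by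
    rw [h1]
    intro t ht
    unfold TM at ht
    rw [Multiset.map_replicate, Multiset.mem_replicate] at ht
    rw [ht.2, pow_one]
  have h3 : g0 = sc n (u : Fˣ) := by
    apply Units.ext
    rw [h2, sc_val, Algebra.algebraMap_eq_smul_one]
  rw [← h3]; exact hg0

/-- noncentrality through types -/
theorem PGD.TM_cen (H : PGD n G D r) (hn : 1 ≤ n) (g : G) {M : Multiset (rootsOfUnity r F)} (hM : Multiset.card M = n) (hT : MT ((g : GL (Fin n) F) : Matrix (Fin n) (Fin n) F) (TM M)) :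
    g ∈ Subgroup.center G ↔ ∃ u, M = Multiset.replicate n u := by
  rw [← TM_center hn (g : GL (Fin n) F) hM hT]
  constructor
  · intro h
    obtain ⟨d, hd, hd2⟩ := (H.cen g).1 h
    exact (mem_center_iff' _).2 ⟨d, hd2⟩
  · intro h
    obtain ⟨u, hu⟩ := (TM_center hn (g : GL (Fin n) F) hM hT).1 h
    subst hu
    have h1 := (isConj_iff_type (g : GL (Fin n) F) (sc n (u : Fˣ)) hT (MT_sc u)).2 rfl
    obtain ⟨c, hc⟩ := isConj_iff.1 h1
    have h3 : sc n (u : Fˣ) ∈ Subgroup.center (GL (Fin n) F) := (mem_center_iff' _).2 ⟨_, rfl⟩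
    have h4 : (g : GL (Fin n) F) = c⁻¹ * sc n (u : Fˣ) * c := by rw [← hc]; group
    rw [mul_assoc, ← Subgroup.mem_center_iff.1 h3 c] at h4
    exact (H.cen g).2 ⟨u, H.rou _ u.2, by rw [h4]; group⟩

def V1 (G : Subgroup (GL (Fin n) F)) (r : ℕ) : Type u := {C : ConjClasses (PQ G) // ∃ g : G, ConjClasses.mk (QuotientGroup.mk g : PQ G) = C ∧ (g : GL (Fin n) F) ^ r = 1 ∧ g ∉ Subgroup.center G}

theorem PGD.card_V1 (H : PGD n G D r) (hn : 1 ≤ n) (hr : r.Prime) (hrF : (r : F) ≠ 0) (hζ : ∃ ζ : F, IsPrimitiveRoot ζ r) :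
    Nat.card (V1 G r) = Nat.card (MulAction.orbitRel.Quotient (rootsOfUnity r F) (Yn (rootsOfUnity r F) n)) := by
  classical
  choose gg hgg using fun M : Yn (rootsOfUnity r F) n => H.tm M.1 M.2.1
  have hpow : ∀ M, (gg M : GL (Fin n) F) ^ r = 1 := fun M => (pow_eq_one_iff hr hrF hζ _ (hgg M)).2 ⟨M.1, rfl, M.2.1⟩
  have hnc : ∀ M, gg M ∉ Subgroup.center G := fun M h => M.2.2 ((H.TM_cen hn _ M.2.1 (hgg M)).1 h)
  let f : Yn (rootsOfUnity r F) n → V1 G r := fun M => ⟨ConjClasses.mk (QuotientGroup.mk (gg M)), gg M, rfl, hpow M, hnc M⟩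
  have hf : ∀ M M', f M = f M' ↔ (MulAction.orbitRel (rootsOfUnity r F) (Yn (rootsOfUnity r F) n)).r M M' := by
    intro M M'
    have h1 : f M = f M' ↔ IsConj (QuotientGroup.mk (gg M) : PQ G) (QuotientGroup.mk (gg M')) := by
      rw [← ConjClasses.mk_eq_mk_iff_isConj]
      exact ⟨fun h => congrArg Subtype.val h, fun h => Subtype.ext h⟩
    rw [h1, H.pconj]
    constructor
    · rintro ⟨c, -, hc⟩
      have hcr : c ^ r = 1 := by
        obtain ⟨y, hy⟩ := isConj_iff.1 hc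
        have h2 : (sc n c * (gg M' : GL (Fin n) F)) ^ r = 1 := by rw [← hy, conj_pow, hpow]; group
        rw [sc_mul_pow, hpow, mul_one] at h2
        exact sc_inj hn (h2.trans sc_one.symm)
      have h3 := (isConj_iff_type _ _ (hgg M) (by rw [sc_mul_val]; exact MT_scale (hgg M') c)).1 hc
      let w : rootsOfUnity r F := ⟨c, (mem_rootsOfUnity r c).2 hcr⟩
      refine ⟨w, ?_⟩
      apply Subtype.ext
      change M'.1.map (fun u => w * u) = M.1
      apply TM_inj
      rw [← TM_scale, h3]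
    · rintro ⟨w, hw⟩
      refine ⟨(w : Fˣ), H.rou _ w.2, ?_⟩
      rw [isConj_iff_type _ _ (hgg M) (by rw [sc_mul_val]; exact MT_scale (hgg M') (w : Fˣ)), TM_scale]
      congr 1
      exact (congrArg Subtype.val hw).symm
  have hsurj : Function.Surjective f := by
    rintro ⟨C, g, hC, hg1, hg2⟩
    obtain ⟨T, hT⟩ := exists_type (Matrix.toLin' ((g : GL (Fin n) F) : Matrix (Fin n) (Fin n) F) : Module.End F (Fin n → F))
    obtain ⟨M, rfl, hM⟩ := (pow_eq_one_iff hr hrF hζ (g : GL (Fin n) F) hT).1 hg1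
    have hMc : ¬ ∃ u, M = Multiset.replicate n u := fun h => hg2 ((H.TM_cen hn g hM hT).2 h)
    refine ⟨⟨M, hM, hMc⟩, ?_⟩
    apply Subtype.ext
    change ConjClasses.mk (QuotientGroup.mk (gg ⟨M, hM, hMc⟩)) = C
    rw [← hC, ConjClasses.mk_eq_mk_iff_isConj, H.pconj]
    refine ⟨1, D.one_mem, ?_⟩
    rw [sc_one, one_mul]
    exact (isConj_iff_type _ _ (hgg ⟨M, hM, hMc⟩) hT).2 rfl
  symm
  apply Nat.card_congr
  refine Equiv.ofBijective (Quotient.lift f (fun a b h => (hf a b).2 h)) ⟨?_, ?_⟩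
  · intro a b
    refine Quotient.inductionOn₂ a b (fun a b h => Quotient.sound ((hf a b).1 h))
  · intro C
    obtain ⟨M, hM⟩ := hsurj C
    exact ⟨Quotient.mk _ M, hM⟩

/-- classes whose lifts have r-th power a scalar which is not an r-th power -/
def V2 (G : Subgroup (GL (Fin n) F)) (D : Subgroup Fˣ) (r : ℕ) : Type u := {C : ConjClasses (PQ G) // ∃ g : G, ConjClasses.mk (QuotientGroup.mk g : PQ G) = C ∧ ∃ c : D, (g : GL (Fin n) F) ^ r = sc n c ∧ ∀ d : Fˣ, d ^ r ≠ c}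

theorem PGD.card_V2 (H : PGD n G D r) (hn : 1 ≤ n) (hr : r.Prime) (hrq : r ∣ Nat.card D) :
    Nat.card (V2 G D r) = (r - 1) * (if r ∣ n then 1 else 0) := by
  classical
  split_ifs with hd
  · obtain ⟨k, hk⟩ := hd
    rw [mul_one]
    let R : Subgroup D := (powMonoidHom r : D →* D).range
    have hR : ∀ c : D, c ∈ R ↔ ∃ d : Fˣ, d ^ r = c := by
      intro c
      constructor
      · rintro ⟨d, hd⟩; exact ⟨d, congrArg Subtype.val hd⟩
      · rintro h
        obtain ⟨d, hd, hd2⟩ := H.root c c.2 h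
        exact ⟨⟨d, hd⟩, Subtype.ext hd2⟩
    have hidx : Nat.card (D ⧸ R) = r := by
      have h1 : R.index = (Nat.card D).gcd r := IsCyclic.index_powMonoidHom_range (G := D) r
      have h2 : Nat.card (D ⧸ R) = R.index := rfl
      rw [h2, h1]
      exact Nat.gcd_eq_right hrq
    choose gg hgg using fun C : V2 G D r => C.2
    choose cc hcc using fun C => (hgg C).2
    let f : V2 G D r → {x : D ⧸ R // x ≠ 1} := fun C => ⟨QuotientGroup.mk (cc C), by
      rw [Ne, QuotientGroup.eq_one_iff, hR]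
      rintro ⟨d, hd⟩
      exact (hcc C).2 d hd⟩
    have hbij : Function.Bijective f := by
      constructor
      · intro C E hCD
        have h1 : (QuotientGroup.mk (cc C) : D ⧸ R) = QuotientGroup.mk (cc E) := congrArg Subtype.val hCD
        rw [QuotientGroup.eq] at h1
        obtain ⟨d, hd⟩ := h1
        have hd' : (d : Fˣ) ^ r = (cc C : Fˣ)⁻¹ * cc E := congrArg Subtype.val hd
        apply Subtype.ext
        rw [← (hgg C).1, ← (hgg E).1, ConjClasses.mk_eq_mk_iff_isConj, isConj_comm, H.pconj]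
        refine ⟨d, d.2, ?_⟩
        have h2 : (sc n (d : Fˣ) * (gg C : GL (Fin n) F)) ^ r = sc n (cc E : Fˣ) := by
          rw [sc_mul_pow, (hcc C).1, hd']
          have : sc n ((cc C : Fˣ)⁻¹ * (cc E : Fˣ)) * sc n (cc C : Fˣ) = sc (F := F) n ((cc C : Fˣ)⁻¹ * (cc E : Fˣ) * (cc C : Fˣ)) := (map_mul (Matrix.GeneralLinearGroup.scalar (Fin n)) _ _).symm
          rw [this]; congr 1
          rw [mul_comm, mul_inv_cancel_left]
        obtain ⟨k1, hk1, hT1⟩ := type_irr hn hr _ _ h2 (hcc E).2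
        obtain ⟨k2, hk2, hT2⟩ := type_irr hn hr _ _ (hcc E).1 (hcc E).2
        have h3 : k1 = k2 := Nat.eq_of_mul_eq_mul_left hr.pos (hk1.symm.trans hk2)
        subst h3
        exact (isConj_iff_type _ _ hT2 hT1).2 rfl
      · rintro ⟨x, hx⟩
        obtain ⟨c, rfl⟩ := QuotientGroup.mk_surjective x
        have hc : ∀ d : Fˣ, d ^ r ≠ c := by
          intro d hd
          apply hx
          rw [QuotientGroup.eq_one_iff, hR]
          exact ⟨d, hd⟩
        obtain ⟨g, hg⟩ := H.ex c c.2 hc k hk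
        have hgr : (g : GL (Fin n) F) ^ r = sc n (c : Fˣ) := by
          have h0 : aeval ((g : GL (Fin n) F) : Matrix (Fin n) (Fin n) F) (X ^ r - C ((c : Fˣ) : F)) = 0 := by
            rw [MT_aeval hg]
            intro t ht
            rw [(Multiset.mem_replicate.1 ht).2, pow_one]
          rw [map_sub, map_pow, aeval_X, aeval_C, sub_eq_zero, Algebra.algebraMap_eq_smul_one, ← sc_val] at h0
          exact Units.ext h0
        let C : V2 G D r := ⟨ConjClasses.mk (QuotientGroup.mk g : PQ G), g, rfl, c, hgr, hc⟩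
        refine ⟨C, ?_⟩
        apply Subtype.ext
        change (QuotientGroup.mk (cc C) : D ⧸ R) = QuotientGroup.mk c
        have h1 : IsConj (QuotientGroup.mk (gg C) : PQ G) (QuotientGroup.mk g) := ConjClasses.mk_eq_mk_iff_isConj.1 (hgg C).1
        rw [H.pconj] at h1
        obtain ⟨d, hdD, hd⟩ := h1
        obtain ⟨y, hy⟩ := isConj_iff.1 hd
        have h2 : sc n (cc C : Fˣ) = sc (F := F) n (d ^ r * (c : Fˣ)) := by
          have h3 : (y * (gg C : GL (Fin n) F) * y⁻¹) ^ r = (sc n d * (g : GL (Fin n) F)) ^ r := by rw [hy]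
          rw [conj_pow, (hcc C).1, sc_mul_pow, hgr] at h3
          have h4 : sc n (cc C : Fˣ) ∈ Subgroup.center (GL (Fin n) F) := (mem_center_iff' _).2 ⟨_, rfl⟩
          rw [Subgroup.mem_center_iff.1 h4 y, mul_inv_cancel_right] at h3
          rw [h3]
          exact (map_mul (Matrix.GeneralLinearGroup.scalar (Fin n)) _ _).symm
        have h5 := sc_inj hn h2
        rw [QuotientGroup.eq, hR]
        refine ⟨d⁻¹, ?_⟩
        have h6 : (((cc C)⁻¹ * c : D) : Fˣ) = (cc C : Fˣ)⁻¹ * (c : Fˣ) := rfl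
        rw [h6, h5, inv_pow, mul_inv, mul_assoc, inv_mul_cancel, mul_one]
    rw [Nat.card_congr (Equiv.ofBijective f hbij)]
    haveI := Fintype.ofFinite (D ⧸ R)
    rw [Nat.card_eq_fintype_card, Fintype.card_subtype_compl, Fintype.card_subtype_eq, ← Nat.card_eq_fintype_card, hidx]
  · rw [mul_zero, Nat.card_eq_zero]
    left
    constructor
    rintro ⟨C, g, hC, c, hg, hc⟩
    obtain ⟨k, hk, -⟩ := type_irr hn hr (g : GL (Fin n) F) c hg hc
    exact hd ⟨k, hk⟩

theorem PGD.main (H : PGD n G D r) (hn : 2 ≤ n) (hr : r.Prime) (hrq : r ∣ Nat.card D) :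
    Nat.card {C : ConjClasses (PQ G) // ∃ g : PQ G, ConjClasses.mk g = C ∧ orderOf g = r} = (Nat.choose (n + r - 1) (r - 1) - r - (if r ∣ n then 1 else 0)) / r + r * (if r ∣ n then 1 else 0) := by
  classical
  have hrc : r ∣ Nat.card Fˣ := hrq.trans (Subgroup.card_subgroup_dvd_card D)
  haveI := Fact.mk hr
  haveI : NeZero r := ⟨hr.ne_zero⟩
  obtain ⟨ζ, hζ0⟩ := exists_prime_orderOf_dvd_card' r hrc
  have hζ' : IsPrimitiveRoot ζ r := hζ0 ▸ IsPrimitiveRoot.orderOf ζ
  have hζ : ∃ ζ : F, IsPrimitiveRoot ζ r := ⟨(ζ : F), IsPrimitiveRoot.coe_units_iff.2 hζ'⟩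
  have hμ : Nat.card (rootsOfUnity r F) = r := hζ'.card_rootsOfUnity'
  have hrF : (r : F) ≠ 0 := by
    obtain ⟨z, hz⟩ := hζ
    exact (hz.neZero').out
  -- split
  have hsplit : {C : ConjClasses (PQ G) // ∃ g : PQ G, ConjClasses.mk g = C ∧ orderOf g = r} ≃ V1 G r ⊕ V2 G D r := by
    have hsc : ∀ g : G, (QuotientGroup.mk g : PQ G) = 1 ↔ g ∈ Subgroup.center G := fun g => QuotientGroup.eq_one_iff g
    have h1 : ∀ C : ConjClasses (PQ G), (∃ g : PQ G, ConjClasses.mk g = C ∧ orderOf g = r) ↔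
        ((∃ g : G, ConjClasses.mk (QuotientGroup.mk g : PQ G) = C ∧ (g : GL (Fin n) F) ^ r = 1 ∧ g ∉ Subgroup.center G) ∨
         (∃ g : G, ConjClasses.mk (QuotientGroup.mk g : PQ G) = C ∧ ∃ c : D, (g : GL (Fin n) F) ^ r = sc n (c : Fˣ) ∧ ∀ d : Fˣ, d ^ r ≠ c)) := by
      intro C
      constructor
      · rintro ⟨x, rfl, hx⟩
        obtain ⟨g, rfl⟩ := QuotientGroup.mk_surjective x
        have h2 : (QuotientGroup.mk g : PQ G) ^ r = 1 := hx ▸ pow_orderOf_eq_one _
        have h3 : g ^ r ∈ Subgroup.center G := (hsc _).1 h2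
        have h4 : g ∉ Subgroup.center G := by
          intro h5
          rw [(hsc g).2 h5, orderOf_one] at hx
          exact hr.one_lt.ne hx
        obtain ⟨c, hcD, hc⟩ := (H.cen _).1 h3
        have hc' : (g : GL (Fin n) F) ^ r = sc n c := by rw [← hc]; rfl
        by_cases h5 : ∃ d : Fˣ, d ^ r = c
        · left
          obtain ⟨d, hdD, hd⟩ := H.root c hcD h5
          have hdi : d⁻¹ ∈ D := D.inv_mem hdD
          refine ⟨⟨sc n d⁻¹, H.sc_mem _ hdi⟩ * g, ?_, ?_, ?_⟩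
          · rw [ConjClasses.mk_eq_mk_iff_isConj, H.pconj]
            exact ⟨d⁻¹, hdi, IsConj.refl _⟩
          · change (sc n d⁻¹ * (g : GL (Fin n) F)) ^ r = 1
            rw [sc_mul_pow, hc', ← hd]
            have : sc n ((d⁻¹) ^ r) * sc n (d ^ r) = sc (F := F) n ((d⁻¹) ^ r * d ^ r) := (map_mul (Matrix.GeneralLinearGroup.scalar (Fin n)) _ _).symm
            rw [this, ← mul_pow, inv_mul_cancel, one_pow, sc_one]
          · intro h6
            apply h4
            exact (Subgroup.mul_mem_cancel_left _ (H.sc_cen hdi)).1 h6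
        · right
          push Not at h5
          exact ⟨g, rfl, ⟨c, hcD⟩, hc', h5⟩
      · rintro (⟨g, rfl, h2, h3⟩ | ⟨g, rfl, c, h2, h3⟩)
        · refine ⟨QuotientGroup.mk g, rfl, orderOf_eq_prime ?_ (fun h => h3 ((hsc g).1 h))⟩
          have : g ^ r = 1 := Subtype.ext h2
          rw [← QuotientGroup.mk_pow, this]; rfl
        · refine ⟨QuotientGroup.mk g, rfl, orderOf_eq_prime ?_ ?_⟩
          · rw [← QuotientGroup.mk_pow]
            exact (hsc _).2 ((H.cen _).2 ⟨c, c.2, h2⟩)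
          · intro h
            obtain ⟨e, heD, he⟩ := (H.cen _).1 ((hsc g).1 h)
            rw [he, sc_pow] at h2
            exact h3 e (sc_inj (by omega) h2)
    have hdisj : ∀ C : ConjClasses (PQ G), ¬ ((∃ g : G, ConjClasses.mk (QuotientGroup.mk g : PQ G) = C ∧ (g : GL (Fin n) F) ^ r = 1 ∧ g ∉ Subgroup.center G) ∧
         (∃ g : G, ConjClasses.mk (QuotientGroup.mk g : PQ G) = C ∧ ∃ c : D, (g : GL (Fin n) F) ^ r = sc n (c : Fˣ) ∧ ∀ d : Fˣ, d ^ r ≠ c)) := by
      rintro C ⟨⟨g, rfl, h2, h3⟩, ⟨h, h4, c, h5, h6⟩⟩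
      rw [ConjClasses.mk_eq_mk_iff_isConj, H.pconj] at h4
      obtain ⟨e, heD, he⟩ := h4
      obtain ⟨y, hy⟩ := isConj_iff.1 he
      have h7 : (y * (h : GL (Fin n) F) * y⁻¹) ^ r = (sc n e * (g : GL (Fin n) F)) ^ r := by rw [hy]
      rw [conj_pow, h5, sc_mul_pow, h2, mul_one] at h7
      have h8 : sc n (c : Fˣ) ∈ Subgroup.center (GL (Fin n) F) := (mem_center_iff' _).2 ⟨_, rfl⟩
      rw [Subgroup.mem_center_iff.1 h8 y, mul_inv_cancel_right] at h7
      exact h6 e (sc_inj (by omega) h7.symm)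
    exact (Equiv.subtypeEquivRight h1).trans (subtypeOrEquiv _ _ (by
      rw [Pi.disjoint_iff]
      intro C
      rw [Prop.disjoint_iff]
      exact hdisj C))
  haveI : Finite (V1 G r) := Subtype.finite
  haveI : Finite (V2 G D r) := Subtype.finite
  rw [Nat.card_congr hsplit, Nat.card_sum, H.card_V1 (by omega) hr hrF hζ, H.card_V2 (by omega) hr hrq]
  have hb := card_orbits (μ := rootsOfUnity r F) (n := n) hr hμ (by omega)
  have hy := card_Yn (μ := rootsOfUnity r F) n (by omega)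
  rw [hμ] at hy
  set N := Nat.card (MulAction.orbitRel.Quotient (rootsOfUnity r F) (Yn (rootsOfUnity r F) n)) with hN
  set K := Nat.card (Yn (rootsOfUnity r F) n) with hK
  rw [← hy]
  have hr2 := hr.two_le
  split_ifs at hb ⊢ with hd
  · -- N ≥ 1
    have hN1 : 1 ≤ N := by
      by_contra h
      have : N = 0 := by omega
      rw [this] at hb
      omega
    obtain ⟨m, hm⟩ := Nat.exists_eq_add_of_le' hN1
    have h1 : K + r - r - 1 = m * r := by
      rw [hm] at hb
      have : (m + 1) * r = m * r + r := by ring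
      omega
    rw [h1, Nat.mul_div_cancel _ hr.pos, hm]
    omega
  · have h1 : K + r - r - 0 = N * r := by omega
    rw [h1, Nat.mul_div_cancel _ hr.pos]
    omega

end Cfsg.Agent.H15.RC
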