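import Mathlib
import Cfsg.Agent.H15_RC14

set_option autoImplicit false
set_option linter.all false
open Polynomial Module Matrix

namespace Cfsg.Agent.H15.RC

universe u

/-- classes of a normal subgroup with abelian quotient inside a class -/
theorem card_split {H G A : Type*} [Group H] [Group G] [CommGroup A] (ι : H →* G) (φ : G →* A) (hι : Function.Injective ι) (hφ : Function.Surjective φ)
    (hr : ∀ g, g ∈ ι.range ↔ φ g = 1) (u : G) (hu : φ u = 1) :
    Nat.card {C : ConjClasses H // ∃ v : H, ConjClasses.mk v = C ∧ IsConj u (ι v)} = (Subgroup.map φ (Subgroup.centralizer {u})).index := by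
  classical
  have hιφ : ∀ h, φ (ι h) = 1 := fun h => (hr _).1 ⟨h, rfl⟩
  set B := Subgroup.map φ (Subgroup.centralizer {u}) with hB
  choose v hv using fun C : {C : ConjClasses H // ∃ v : H, ConjClasses.mk v = C ∧ IsConj u (ι v)} => C.2
  choose g hg using fun C => isConj_iff.1 (hv C).2
  have hindex : B.index = Nat.card (A ⧸ B) := rfl
  rw [hindex]
  apply Nat.card_congr
  refine Equiv.ofBijective (fun C => (QuotientGroup.mk (φ (g C)) : A ⧸ B)) ⟨?_, ?_⟩
  · intro C D hCD
    have h1 : (QuotientGroup.mk (φ (g C)) : A ⧸ B) = QuotientGroup.mk (φ (g D)) := hCD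
    rw [QuotientGroup.eq] at h1
    obtain ⟨c, hc, hc2⟩ := h1
    have hc' : c * u = u * c := (Subgroup.mem_centralizer_iff.1 hc u (Set.mem_singleton u)).symm
    -- h = g D * c⁻¹ ... 
    obtain ⟨h, hh⟩ : ∃ h, ι h = g D * c⁻¹ * (g C)⁻¹ := by
      have : g D * c⁻¹ * (g C)⁻¹ ∈ ι.range := by
        rw [hr, map_mul, map_mul, map_inv, map_inv, hc2]
        rw [mul_inv, inv_inv]
        have := mul_comm (φ (g C)) (φ (g D))⁻¹
        rw [mul_assoc, mul_comm (φ (g C) * _) , ← mul_assoc]
        simp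
      exact this
    apply Subtype.ext
    rw [← (hv C).1, ← (hv D).1, ConjClasses.mk_eq_mk_iff_isConj, isConj_iff]
    refine ⟨h, hι ?_⟩
    rw [map_mul, map_mul, map_inv, hh, ← hg C, ← hg D]
    have h2 : c⁻¹ * u * c = u := by rw [mul_assoc, ← hc', inv_mul_cancel_left]
    calc g D * c⁻¹ * (g C)⁻¹ * (g C * u * (g C)⁻¹) * (g D * c⁻¹ * (g C)⁻¹)⁻¹ = g D * (c⁻¹ * u * c) * (g D)⁻¹ := by group
      _ = _ := by rw [h2]
  · intro x
    obtain ⟨a, rfl⟩ := QuotientGroup.mk_surjective x
    obtain ⟨k, rfl⟩ := hφ a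
    obtain ⟨w, hw⟩ : ∃ w, ι w = k * u * k⁻¹ := by
      have : k * u * k⁻¹ ∈ ι.range := by
        rw [hr, map_mul, map_mul, map_inv, hu, mul_one, mul_inv_cancel]
      exact this
    let C : {C : ConjClasses H // ∃ v : H, ConjClasses.mk v = C ∧ IsConj u (ι v)} := ⟨ConjClasses.mk w, w, rfl, isConj_iff.2 ⟨k, hw.symm⟩⟩
    refine ⟨C, ?_⟩
    change (QuotientGroup.mk (φ (g C)) : A ⧸ B) = QuotientGroup.mk (φ k)
    have h1 : IsConj w (v C) := ConjClasses.mk_eq_mk_iff_isConj.1 (hv C).1.symm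
    obtain ⟨h, hh⟩ := isConj_iff.1 h1
    rw [QuotientGroup.eq, hB, Subgroup.mem_map]
    refine ⟨(g C)⁻¹ * ι h * k, ?_, ?_⟩
    · rw [Subgroup.mem_centralizer_iff]
      rintro y (rfl : y = u)
      -- y * (gC⁻¹ ι h k) = (gC⁻¹ ι h k) * y
      have h2 : ι h * (k * y * k⁻¹) * (ι h)⁻¹ = g C * y * (g C)⁻¹ := by
        rw [hg C, ← hh, map_mul, map_mul, map_inv, hw]
      have h3 : (g C)⁻¹ * (ι h * (k * y * k⁻¹) * (ι h)⁻¹) * (ι h * k) = (g C)⁻¹ * (g C * y * (g C)⁻¹) * (ι h * k) := by rw [h2]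
      have h4 : (g C)⁻¹ * (ι h * (k * y * k⁻¹) * (ι h)⁻¹) * (ι h * k) = (g C)⁻¹ * ι h * k * y := by group
      have h5 : (g C)⁻¹ * (g C * y * (g C)⁻¹) * (ι h * k) = y * ((g C)⁻¹ * ι h * k) := by group
      rw [← h4, ← h5, h3]
    · rw [map_mul, map_mul, map_inv, hιφ, mul_one]

variable {F : Type u} [Field F] {n : ℕ}

theorem cent_poly {A g : Matrix (Fin n) (Fin n) F} {P : F[X]} {e : ℕ} (h : MT A {(P, e)}) (hc : g * A = A * g) : ∃ f : F[X], g = aeval A f := by
  classical
  obtain ⟨k, p, e', D, hT⟩ := h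
  have hk : k = 1 := by
    have := congrArg Multiset.card hT
    rw [Multiset.card_singleton, Multiset.card_map, Finset.card_val, Finset.card_univ, Fintype.card_fin] at this
    exact this.symm
  subst hk
  obtain ⟨φ, hφ⟩ := D.iso
  let w : Fin n → F := φ.symm (fun j => Submodule.Quotient.mk 1)
  have hw : ∀ f : F[X], φ (aeval (Matrix.toLin' A : Module.End F (Fin n → F)) f w) = fun j => Submodule.Quotient.mk f := by
    intro f
    rw [iso_aeval φ hφ, LinearEquiv.apply_symm_apply]
    funext j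
    rw [Pi.smul_apply, ← Submodule.Quotient.mk_smul, smul_eq_mul, mul_one]
  have hspan : ∀ v : Fin n → F, ∃ f : F[X], v = aeval (Matrix.toLin' A : Module.End F (Fin n → F)) f w := by
    intro v
    obtain ⟨f, hf⟩ := Submodule.mkQ_surjective _ (φ v 0)
    refine ⟨f, φ.injective ?_⟩
    rw [hw]
    funext j
    have : j = 0 := Subsingleton.elim _ _
    subst this
    exact hf.symm
  have hcomm : ∀ (f : F[X]) (v : Fin n → F), Matrix.toLin' g (aeval (Matrix.toLin' A : Module.End F (Fin n → F)) f v) = aeval (Matrix.toLin' A : Module.End F (Fin n → F)) f (Matrix.toLin' g v) := by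
    intro f v
    rw [aeval_toLin', ← Matrix.toLin'_mul_apply, ← Matrix.toLin'_mul_apply]
    have : Commute g (aeval A f) := by
      induction f using Polynomial.induction_on' with
      | add f h hf hh => rw [map_add]; exact hf.add_right hh
      | monomial m c =>
        rw [aeval_monomial]
        exact Commute.mul_right (show Commute g (algebraMap F (Matrix (Fin n) (Fin n) F) c) from (Algebra.commutes c g).symm) ((show Commute g A from hc).pow_right m)
    rw [this.eq]
  obtain ⟨f, hf⟩ := hspan (Matrix.toLin' g w)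
  refine ⟨f, ?_⟩
  apply Matrix.toLin'.injective
  apply LinearMap.ext
  intro v
  obtain ⟨h, rfl⟩ := hspan v
  rw [hcomm, hf, ← aeval_toLin', ← Module.End.mul_apply, ← Module.End.mul_apply, ← map_mul, ← map_mul, mul_comm]

theorem det_nil {g : Matrix (Fin n) (Fin n) F} {c : F} (h : (g - c • (1 : Matrix (Fin n) (Fin n) F)) ^ n = 0) : g.det = c ^ n := by
  have h1 : IsNilpotent (g - c • (1 : Matrix (Fin n) (Fin n) F)) := ⟨n, h⟩
  have h2 := Matrix.isNilpotent_charpoly_sub_pow_of_isNilpotent h1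
  have h3 : (g - c • (1 : Matrix (Fin n) (Fin n) F)).charpoly = X ^ n := by
    have := h2.eq_zero
    rw [sub_eq_zero, Fintype.card_fin] at this
    exact this
  have h4 := congrArg (eval (-c)) h3
  rw [Matrix.eval_charpoly, eval_pow, eval_X] at h4
  have h5 : (Matrix.scalar (Fin n) (-c) - (g - c • (1 : Matrix (Fin n) (Fin n) F))) = -g := by
    have : Matrix.scalar (Fin n) (-c) = (-c) • (1 : Matrix (Fin n) (Fin n) F) := by
      ext i j
      simp [Matrix.scalar_apply, Matrix.one_apply, Matrix.diagonal_apply]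
    rw [this, neg_smul]
    abel
  rw [h5, Matrix.det_neg, Fintype.card_fin] at h4
  have h6 : (-1 : F) ^ n * ((-1) ^ n * g.det) = (-1) ^ n * (-c) ^ n := by rw [h4]
  rw [← mul_assoc, ← mul_pow, ← mul_pow] at h6
  simpa using h6

theorem det_cent {A g : Matrix (Fin n) (Fin n) F} (hn : 1 ≤ n) (h : MT A {((X - 1 : F[X]), n)}) (hc : g * A = A * g) :
    ∃ c : F, (g - c • (1 : Matrix (Fin n) (Fin n) F)) ^ n = 0 ∧ g.det = c ^ n := by
  obtain ⟨f, rfl⟩ := cent_poly h hc
  have h0 : (A - 1) ^ n = 0 := by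
    rw [MT_unip h]
    intro t ht
    rw [Multiset.mem_singleton] at ht
    subst ht
    exact ⟨rfl, le_rfl⟩
  have h1 : (aeval A f - (f.eval 1) • (1 : Matrix (Fin n) (Fin n) F)) ^ n = 0 := by
    have h2 : (X - 1 : F[X]) ∣ f - C (f.eval 1) := by
      rw [← C_1, dvd_iff_isRoot]
      simp
    obtain ⟨k, hk⟩ := h2
    have h3 : aeval A f - (f.eval 1) • (1 : Matrix (Fin n) (Fin n) F) = aeval A (X - 1 : F[X]) * aeval A k := by
      rw [← Algebra.algebraMap_eq_smul_one, ← aeval_C A, ← map_sub, hk, map_mul]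
    have h4 : Commute (aeval A (X - 1 : F[X])) (aeval A k) := by
      change _ * _ = _ * _
      rw [← map_mul, mul_comm, map_mul]
    have h5 : aeval A (X - 1 : F[X]) = A - 1 := by rw [map_sub, aeval_X, map_one]
    rw [h3, h4.mul_pow, h5, h0, zero_mul]
  exact ⟨f.eval 1, h1, det_nil h1⟩

theorem rank_add_card {A : Matrix (Fin n) (Fin n) F} {T : Multiset (F[X] × ℕ)} (h : MT A T) (hu : ∀ t ∈ T, t.1 = X - 1) : (A - 1).rank + Multiset.card T = n := by
  classical
  have hv := h.valid
  have hs := h.size_eq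
  rw [finrank_fin_fun] at hs
  obtain ⟨k, p, e, D, rfl⟩ := h
  have h1 := D.rk_pow irr_X1 monic_X1 1
  rw [pow_one, rk_toLin', map_sub, aeval_X, map_one] at h1
  have hp : ∀ j, p j = X - 1 := fun j => hu _ (Multiset.mem_map_of_mem _ (Finset.mem_univ j))
  rw [h1, Multiset.card_map, Finset.card_val, Finset.card_univ, Fintype.card_fin]
  have h2 : ∀ j : Fin k, (if p j = X - 1 then (e j - 1) * (X - 1 : F[X]).natDegree else e j * (p j).natDegree) = e j - 1 := by
    intro j
    rw [if_pos (hp j), deg_X1, mul_one]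
  rw [Finset.sum_congr rfl (fun j _ => h2 j)]
  unfold size at hs
  rw [Multiset.map_map] at hs
  have h3 : ∑ j : Fin k, e j = n := by
    rw [← hs]
    change _ = ∑ j : Fin k, e j * (p j).natDegree
    exact Finset.sum_congr rfl (fun j _ => by rw [hp j, deg_X1, mul_one])
  have h4 : ∑ j : Fin k, (e j - 1) + ∑ j : Fin k, 1 = ∑ j : Fin k, e j := by
    rw [← Finset.sum_add_distrib]
    exact Finset.sum_congr rfl (fun j _ => by have := D.pos j; omega)
  rw [Finset.sum_const, Finset.card_univ, Fintype.card_fin, smul_eq_mul, mul_one] at h4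
  omega

/-- regular unipotents -/
theorem reg_iff (hn : 1 ≤ n) {A : Matrix (Fin n) (Fin n) F} {T : Multiset (F[X] × ℕ)} (h : MT A T) :
    ((A - 1) ^ n = 0 ∧ (A - 1).rank = n - 1) ↔ T = {((X - 1 : F[X]), n)} := by
  constructor
  · rintro ⟨h1, h2⟩
    have h3 := (MT_unip h n).1 h1
    have h4 := rank_add_card h (fun t ht => (h3 t ht).1)
    rw [h2] at h4
    have h5 : Multiset.card T = 1 := by omega
    obtain ⟨t, rfl⟩ := Multiset.card_eq_one.1 h5
    have h6 := h3 t (Multiset.mem_singleton_self t)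
    have h7 := h.size_eq
    rw [finrank_fin_fun] at h7
    unfold size at h7
    rw [Multiset.map_singleton, Multiset.sum_singleton, h6.1, deg_X1, mul_one] at h7
    rw [← h6.1, ← h7]
  · rintro rfl
    have h3 : ∀ t ∈ ({((X - 1 : F[X]), n)} : Multiset (F[X] × ℕ)), t.1 = X - 1 ∧ t.2 ≤ n := by
      intro t ht
      rw [Multiset.mem_singleton] at ht
      subst ht
      exact ⟨rfl, le_rfl⟩
    have h4 := rank_add_card h (fun t ht => (h3 t ht).1)
    rw [Multiset.card_singleton] at h4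
    exact ⟨(MT_unip h n).2 h3, by omega⟩

theorem reg_adm (hn : 1 ≤ n) : Adm (F := F) n {((X - 1 : F[X]), n)} := by
  refine ⟨?_, ?_, ?_⟩
  · intro t ht
    rw [Multiset.mem_singleton] at ht
    subst ht
    exact ⟨irr_X1, monic_X1, hn⟩
  · unfold size
    rw [Multiset.map_singleton, Multiset.sum_singleton, deg_X1, mul_one]
  · intro t ht
    rw [Multiset.mem_singleton] at ht
    subst ht
    exact X1_ne_X

end Cfsg.Agent.H15.RC
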