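import Mathlib
import Cfsg.Agent.H15_RC6

set_option autoImplicit false
set_option linter.all false
open Polynomial Module Matrix

namespace Cfsg.Agent.H15.RC

universe u
variable {F : Type u} [Field F]

theorem det_ses {M P' Q' : Type*} [AddCommGroup M] [Module F M] [Module.Finite F M] [AddCommGroup P'] [Module F P'] [AddCommGroup Q'] [Module F Q']
    (f : M →ₗ[F] M) (a : P' →ₗ[F] P') (b : Q' →ₗ[F] Q') (i : P' →ₗ[F] M) (π : M →ₗ[F] Q') (hi : Function.Injective i) (hπ : Function.Surjective π)
    (hex : LinearMap.range i = LinearMap.ker π) (hfi : ∀ x, f (i x) = i (a x)) (hfπ : ∀ x, π (f x) = b (π x)) : LinearMap.det f = LinearMap.det a * LinearMap.det b := by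
  have hW : LinearMap.range i ≤ (LinearMap.range i).comap f := by
    rintro _ ⟨x, rfl⟩
    exact ⟨a x, (hfi x).symm⟩
  rw [LinearMap.det_eq_det_mul_det (LinearMap.range i) f hW]
  congr 1
  · let e := LinearEquiv.ofInjective i hi
    rw [← LinearMap.det_conj a e]
    congr 1
    apply LinearMap.ext
    intro y
    obtain ⟨x, rfl⟩ := e.surjective y
    apply Subtype.ext
    change f (i x) = _
    rw [LinearMap.comp_apply, LinearMap.comp_apply, LinearEquiv.coe_coe, LinearEquiv.coe_coe, LinearEquiv.symm_apply_apply]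
    exact hfi x
  · let e : (M ⧸ LinearMap.range i) ≃ₗ[F] Q' := (Submodule.quotEquivOfEq _ _ hex).trans (π.quotKerEquivOfSurjective hπ)
    rw [← LinearMap.det_conj b e.symm]
    congr 1
    apply LinearMap.ext
    intro y
    obtain ⟨x, rfl⟩ := Submodule.mkQ_surjective _ y
    apply e.injective
    rw [LinearMap.comp_apply, LinearMap.comp_apply, LinearEquiv.coe_coe, LinearEquiv.coe_coe, LinearEquiv.symm_symm, LinearEquiv.apply_symm_apply]
    change π (f x) = b (π x)
    exact hfπ x

/-- diagonal map on a finite product -/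
def piMapL {ι : Type*} {M : ι → Type*} [∀ j, AddCommGroup (M j)] [∀ j, Module F (M j)] (f : ∀ j, M j →ₗ[F] M j) : (∀ j, M j) →ₗ[F] (∀ j, M j) :=
  LinearMap.pi (fun j => (f j).comp (LinearMap.proj j))

theorem piMapL_apply {ι : Type*} {M : ι → Type*} [∀ j, AddCommGroup (M j)] [∀ j, Module F (M j)] (f : ∀ j, M j →ₗ[F] M j) (x : ∀ j, M j) (j : ι) :
    piMapL f x j = f j (x j) := rfl

theorem det_fam {k : ℕ} (M : Fin k → Type*) [∀ j, AddCommGroup (M j)] [∀ j, Module F (M j)] [∀ j, Module.Finite F (M j)] (f : ∀ j, M j →ₗ[F] M j) :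
    LinearMap.det (piMapL f) = ∏ j, LinearMap.det (f j) := by
  classical
  induction k with
  | zero =>
    rw [Finset.univ_eq_empty, Finset.prod_empty]
    have : piMapL f = LinearMap.id := by
      apply LinearMap.ext
      intro x
      exact Subsingleton.elim _ _
    rw [this, LinearMap.det_id]
  | succ k ih =>
    rw [Fin.prod_univ_succ, ← ih (fun j => M j.succ) (fun j => f j.succ)]
    let tl : (∀ j, M j) →ₗ[F] (∀ j : Fin k, M j.succ) := LinearMap.pi (fun j => LinearMap.proj j.succ)
    refine det_ses (piMapL f) (f 0) (piMapL (fun j => f j.succ)) (LinearMap.single F M 0) tl ?_ ?_ ?_ ?_ ?_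
    · intro x y hxy
      have := congrFun hxy 0
      simpa using this
    · intro y
      refine ⟨Fin.cons 0 y, ?_⟩
      funext j
      change (Fin.cons 0 y : ∀ j, M j) j.succ = y j
      rw [Fin.cons_succ]
    · ext x
      constructor
      · rintro ⟨y, rfl⟩
        rw [LinearMap.mem_ker]
        funext j
        change (Pi.single 0 y : ∀ j, M j) j.succ = 0
        exact Pi.single_eq_of_ne (Fin.succ_ne_zero j) y
      · intro hx
        rw [LinearMap.mem_ker] at hx
        refine ⟨x 0, ?_⟩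
        funext j
        refine Fin.cases ?_ (fun j => ?_) j
        · change (Pi.single 0 (x 0) : ∀ j, M j) 0 = x 0
          exact Pi.single_eq_same _ _
        · change (Pi.single 0 (x 0) : ∀ j, M j) j.succ = x j.succ
          rw [Pi.single_eq_of_ne (Fin.succ_ne_zero j)]
          exact (congrFun hx j).symm
    · intro x
      funext j
      rw [piMapL_apply]
      by_cases hj : j = 0
      · subst hj
        change f 0 ((Pi.single 0 x : ∀ j, M j) 0) = (Pi.single 0 (f 0 x) : ∀ j, M j) 0
        rw [Pi.single_eq_same, Pi.single_eq_same]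
      · change f j ((Pi.single 0 x : ∀ j, M j) j) = (Pi.single 0 (f 0 x) : ∀ j, M j) j
        rw [Pi.single_eq_of_ne hj, Pi.single_eq_of_ne hj, map_zero]
    · intro x; rfl

theorem det_Qpow {P : F[X]} (hP : P.Monic) (f : F[X]) (e : ℕ) : LinearMap.det (mulF f (Q (P ^ e))) = LinearMap.det (mulF f (Q P)) ^ e := by
  induction e with
  | zero =>
    haveI : Subsingleton (Q (P ^ 0)) := by
      rw [pow_zero]
      refine (Submodule.Quotient.subsingleton_iff).2 ?_
      exact Ideal.span_singleton_one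
    have : mulF f (Q (P ^ 0)) = LinearMap.id := by
      apply LinearMap.ext
      intro x
      exact Subsingleton.elim _ _
    rw [this, LinearMap.det_id, pow_zero]
  | succ e ih =>
    haveI := finite_Q (hP.pow (e+1))
    haveI := finite_Q (hP.pow e)
    haveI := finite_Q hP
    have hle1 : Submodule.span F[X] {P} ≤ (Submodule.span F[X] {P ^ (e+1)}).comap (LinearMap.lsmul F[X] F[X] (P ^ e)) := by
      rw [Submodule.span_singleton_le_iff_mem, Submodule.mem_comap]
      change P ^ e * P ∈ Ideal.span {P ^ (e+1)}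
      rw [← pow_succ]
      exact Ideal.mem_span_singleton_self _
    have hle2 : Submodule.span F[X] {P ^ (e+1)} ≤ Submodule.span F[X] {P ^ e} := by
      change Ideal.span {P ^ (e+1)} ≤ Ideal.span {P ^ e}
      rw [Ideal.span_singleton_le_span_singleton]
      exact pow_dvd_pow P (Nat.le_succ e)
    let i : Q P →ₗ[F[X]] Q (P ^ (e+1)) := Submodule.mapQ _ _ (LinearMap.lsmul F[X] F[X] (P ^ e)) hle1
    let π : Q (P ^ (e+1)) →ₗ[F[X]] Q (P ^ e) := Submodule.factor hle2
    have hi : ∀ x, i (Submodule.Quotient.mk x) = Submodule.Quotient.mk (P ^ e * x) := fun x => rfl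
    have hπ : ∀ x, π (Submodule.Quotient.mk x) = Submodule.Quotient.mk x := fun x => rfl
    have hmk : ∀ (g x : F[X]), (Submodule.Quotient.mk x : Q g) = 0 ↔ g ∣ x := by
      intro g x
      rw [Submodule.Quotient.mk_eq_zero]
      exact Ideal.mem_span_singleton
    have h0 : LinearMap.det (mulF f (Q P)) ^ (e + 1) = LinearMap.det (mulF f (Q P)) * LinearMap.det (mulF f (Q (P ^ e))) := by rw [ih, pow_succ']
    rw [h0]
    refine det_ses (mulF f (Q (P ^ (e+1)))) (mulF f (Q P)) (mulF f (Q (P ^ e))) (i.restrictScalars F) (π.restrictScalars F) ?_ ?_ ?_ ?_ ?_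
    · rw [← LinearMap.ker_eq_bot, LinearMap.ker_eq_bot']
      intro x hx
      obtain ⟨x, rfl⟩ := Submodule.mkQ_surjective _ x
      have h1 : (Submodule.Quotient.mk (P ^ e * x) : Q (P ^ (e+1))) = 0 := hx
      rw [hmk, pow_succ] at h1
      exact (hmk P x).2 ((mul_dvd_mul_iff_left (pow_ne_zero e hP.ne_zero)).1 h1)
    · intro y
      obtain ⟨x, rfl⟩ := Submodule.mkQ_surjective _ y
      exact ⟨Submodule.Quotient.mk x, rfl⟩
    · ext y
      obtain ⟨x, rfl⟩ := Submodule.mkQ_surjective _ y
      rw [LinearMap.mem_ker]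
      constructor
      · rintro ⟨z, hz⟩
        obtain ⟨z, rfl⟩ := Submodule.mkQ_surjective _ z
        rw [← hz]
        change (Submodule.Quotient.mk (P ^ e * z) : Q (P ^ e)) = 0
        rw [hmk]; exact dvd_mul_right _ _
      · intro h
        have h1 : (Submodule.Quotient.mk x : Q (P ^ e)) = 0 := h
        rw [hmk] at h1
        obtain ⟨z, rfl⟩ := h1
        exact ⟨Submodule.Quotient.mk z, rfl⟩
    · intro x
      change f • i x = i (f • x)
      rw [map_smul]
    · intro x
      change π (f • x) = f • π x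
      rw [map_smul]

theorem det_norm (P f : F[X]) : LinearMap.det (mulF f (Q P)) = Algebra.norm F (AdjoinRoot.mk P f) := by
  rw [Algebra.norm_apply]
  rfl

theorem det_X {P : F[X]} (hP : P.Monic) : LinearMap.det (mulF X (Q P)) = (-1) ^ P.natDegree * P.coeff 0 := by
  rw [det_norm]
  have h := Algebra.PowerBasis.norm_gen_eq_coeff_zero_minpoly (AdjoinRoot.powerBasis' hP)
  rw [AdjoinRoot.powerBasis'_gen, AdjoinRoot.powerBasis'_dim] at h
  rw [AdjoinRoot.mk_X, h]
  congr 2
  have := AdjoinRoot.minpoly_root hP.ne_zero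
  rw [this, hP.leadingCoeff, inv_one, C_1, mul_one]

/-- determinant of a type -/
noncomputable def dt (T : Multiset (F[X] × ℕ)) : F := (T.map (fun t => ((-1) ^ t.1.natDegree * t.1.coeff 0) ^ t.2)).prod

theorem MT_det {n : ℕ} {A : Matrix (Fin n) (Fin n) F} {T : Multiset (F[X] × ℕ)} (h : MT A T) : A.det = dt T := by
  obtain ⟨k, p, e, D, rfl⟩ := h
  obtain ⟨φ, hφ⟩ := D.iso
  haveI : ∀ j, Module.Finite F (Q (p j ^ e j)) := fun j => finite_Q ((D.mon j).pow _)
  rw [← LinearMap.det_toLin']
  have h1 : (φ : (Fin n → F) →ₗ[F] _) ∘ₗ (Matrix.toLin' A) ∘ₗ (φ.symm : _ →ₗ[F] (Fin n → F)) = piMapL (fun j => mulF X (Q (p j ^ e j))) := by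
    apply LinearMap.ext
    intro y
    change φ (Matrix.toLin' A (φ.symm y)) = _
    rw [hφ, LinearEquiv.apply_symm_apply]
    rfl
  rw [← LinearMap.det_conj (Matrix.toLin' A) φ, h1, det_fam]
  unfold dt
  rw [Multiset.map_map]
  change _ = ∏ j : Fin k, ((-1) ^ (p j).natDegree * (p j).coeff 0) ^ e j
  exact Finset.prod_congr rfl (fun j _ => by rw [det_Qpow (D.mon j), det_X (D.mon j)])

theorem cent_det [Finite F] {n : ℕ} {g : GL (Fin n) F} {T : Multiset (F[X] × ℕ)} (h : MT (g : Matrix (Fin n) (Fin n) F) T) {t : F[X] × ℕ} (ht : t ∈ T) (x : Fˣ) :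
    ∃ c : GL (Fin n) F, c * g = g * c ∧ Matrix.GeneralLinearGroup.det c = x ^ t.2 := by
  classical
  obtain ⟨k, p, e, D, rfl⟩ := h
  rw [Multiset.mem_map] at ht
  obtain ⟨j0, -, rfl⟩ := ht
  obtain ⟨φ, hφ⟩ := D.iso
  haveI : ∀ j, Module.Finite F (Q (p j ^ e j)) := fun j => finite_Q ((D.mon j).pow _)
  obtain ⟨f, hf⟩ : ∃ f : F[X], Algebra.norm F (AdjoinRoot.mk (p j0) f) = x := by
    haveI := Fact.mk (D.irr j0)
    haveI : Module.Finite F (AdjoinRoot (p j0)) := (D.mon j0).finite_adjoinRoot
    haveI : Finite (AdjoinRoot (p j0)) := Module.finite_of_finite F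
    obtain ⟨y, hy⟩ := FiniteField.norm_surjective F (AdjoinRoot (p j0)) x
    obtain ⟨f, rfl⟩ := AdjoinRoot.mk_surjective y
    exact ⟨f, hy⟩
  let y : ∀ j, Q (p j ^ e j) →ₗ[F] Q (p j ^ e j) := fun j => mulF (if j = j0 then f else 1) _
  have hdet : LinearMap.det (piMapL y) = x ^ e j0 := by
    rw [det_fam]
    rw [Finset.prod_eq_single j0]
    · change LinearMap.det (mulF (if j0 = j0 then f else 1) _) = _
      rw [if_pos rfl, det_Qpow (D.mon j0), det_norm, hf]
    · intro j _ hj
      change LinearMap.det (mulF (if j = j0 then f else 1) _) = _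
      rw [if_neg hj]
      have : mulF (1 : F[X]) (Q (p j ^ e j)) = LinearMap.id := by
        apply LinearMap.ext
        intro z
        exact one_smul F[X] z
      rw [this, LinearMap.det_id]
    · intro h; exact absurd (Finset.mem_univ _) h
  let cL : (Fin n → F) →ₗ[F] (Fin n → F) := (φ.symm : _ →ₗ[F] (Fin n → F)) ∘ₗ piMapL y ∘ₗ (φ : (Fin n → F) →ₗ[F] _)
  have hcdet : LinearMap.det cL = x ^ e j0 := by
    have := LinearMap.det_conj (piMapL y) φ.symm
    rw [LinearEquiv.symm_symm] at this
    rw [← hdet, ← this]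
  have hcomm : ∀ v, cL (Matrix.toLin' (g : Matrix (Fin n) (Fin n) F) v) = Matrix.toLin' (g : Matrix (Fin n) (Fin n) F) (cL v) := by
    intro v
    apply φ.injective
    rw [hφ]
    change φ (φ.symm (piMapL y (φ (Matrix.toLin' (g : Matrix (Fin n) (Fin n) F) v)))) = (X : F[X]) • φ (φ.symm (piMapL y (φ v)))
    rw [LinearEquiv.apply_symm_apply, LinearEquiv.apply_symm_apply, hφ]
    funext j
    change (if j = j0 then f else 1) • ((X : F[X]) • φ v) j = (X : F[X]) • (if j = j0 then f else 1) • (φ v j)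
    rw [Pi.smul_apply, smul_smul, smul_smul, mul_comm]
  let cM := LinearMap.toMatrix' cL
  have hM : cM.det = x ^ e j0 := by rw [LinearMap.det_toMatrix', hcdet]
  have hu : IsUnit cM.det := by rw [hM]; exact (x.isUnit).pow _
  refine ⟨Matrix.GeneralLinearGroup.mk'' cM hu, ?_, ?_⟩
  · apply Units.ext
    change cM * (g : Matrix (Fin n) (Fin n) F) = (g : Matrix (Fin n) (Fin n) F) * cM
    apply Matrix.toLin'.injective
    rw [Matrix.toLin'_mul, Matrix.toLin'_mul, Matrix.toLin'_toMatrix']
    exact LinearMap.ext hcomm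
  · apply Units.ext
    rw [Matrix.GeneralLinearGroup.val_det_apply]
    exact hM

end Cfsg.Agent.H15.RC
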