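import Mathlib
import Cfsg.Agent.H15_RK1

set_option autoImplicit false
set_option linter.all false
open Polynomial Module Matrix

namespace Cfsg.Agent.H15.RC

universe u
variable {F : Type u} [Field F]

open Classical in
/-- exponents occurring in a type -/
noncomputable def ex (T : Multiset (F[X] × ℕ)) : Finset ℕ := (T.map Prod.snd).toFinset

theorem mem_ex {T : Multiset (F[X] × ℕ)} {e : ℕ} : e ∈ ex T ↔ ∃ t ∈ T, t.2 = e := by
  unfold ex
  rw [Multiset.mem_toFinset, Multiset.mem_map]

open Classical in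
/-- product of the polynomials with exponent e -/
noncomputable def fe (T : Multiset (F[X] × ℕ)) (e : ℕ) : F[X] := ((T.filter (fun t => t.2 = e)).map Prod.fst).prod

theorem dt_add (T S : Multiset (F[X] × ℕ)) : dt (T + S) = dt T * dt S := by
  unfold dt; rw [Multiset.map_add, Multiset.prod_add]

/-- signed constant term -/
noncomputable def sg (f : F[X]) : F := (-1) ^ f.natDegree * f.coeff 0

theorem sg_mul {f g : F[X]} (hf : f.Monic) (hg : g.Monic) : sg (f * g) = sg f * sg g := by
  unfold sg
  rw [hf.natDegree_mul hg, mul_coeff_zero, pow_add]; ring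

theorem sg_prod (S : Multiset F[X]) (h : ∀ P ∈ S, P.Monic) : sg S.prod = (S.map sg).prod := by
  induction S using Multiset.induction_on with
  | empty => simp [sg]
  | cons P S ih =>
    have hS : ∀ P ∈ S, P.Monic := fun Q hQ => h Q (Multiset.mem_cons_of_mem hQ)
    have hSm : S.prod.Monic := by
      have := monic_multiset_prod_of_monic S id hS
      rwa [Multiset.map_id] at this
    rw [Multiset.prod_cons, Multiset.map_cons, Multiset.prod_cons, sg_mul (h P (Multiset.mem_cons_self _ _)) hSm, ih hS]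

theorem dt_map (S : Multiset F[X]) (h : ∀ P ∈ S, P.Monic) (e : ℕ) : dt (S.map (fun P => (P, e))) = sg S.prod ^ e := by
  unfold dt
  rw [Multiset.map_map, sg_prod S h, ← Multiset.prod_map_pow]
  rfl

section mo
variable {n : ℕ} {T : Multiset (F[X] × ℕ)} (hT : Adm n T)

open Classical in
theorem filter_map_eq (T : Multiset (F[X] × ℕ)) (e : ℕ) : ((T.filter (fun t => t.2 = e)).map Prod.fst).map (fun P => (P, e)) = T.filter (fun t => t.2 = e) := by
  rw [Multiset.map_map]
  conv_rhs => rw [← Multiset.map_id (T.filter (fun t => t.2 = e))]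
  apply Multiset.map_congr rfl
  intro t ht
  rw [Multiset.mem_filter] at ht
  simp only [Function.comp_apply, id]
  rw [← ht.2]

include hT in
theorem fe_monic (e : ℕ) : (fe T e).Monic := by
  classical
  unfold fe
  have := monic_multiset_prod_of_monic ((T.filter (fun t => t.2 = e)).map Prod.fst) id (by
    intro P hP
    rw [Multiset.mem_map] at hP
    obtain ⟨t, ht, rfl⟩ := hP
    exact (hT.1 t (Multiset.mem_filter.1 ht).1).2.1)
  rwa [Multiset.map_id] at this

include hT in
theorem nf_fe (e : ℕ) : (nf (fe T e)).map (fun P => (P, e)) = (T.filter (fun t => t.2 = e)) := by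
  classical
  have h1 : nf (fe T e) = (T.filter (fun t => t.2 = e)).map Prod.fst := by
    unfold fe
    apply nf_of_prod
    intro P hP
    rw [Multiset.mem_map] at hP
    obtain ⟨t, ht, rfl⟩ := hP
    have := hT.1 t (Multiset.mem_filter.1 ht).1
    exact ⟨this.1, this.2.1⟩
  rw [h1]
  exact filter_map_eq T e

include hT in
theorem fe_coeff0 (e : ℕ) : (fe T e).coeff 0 ≠ 0 := by
  classical
  rw [X_dvd_iff_mem (fe_monic hT e)]
  intro P hP hPX
  have h1 : (P, e) ∈ (nf (fe T e)).map (fun P => (P, e)) := Multiset.mem_map_of_mem _ hP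
  rw [nf_fe hT, Multiset.mem_filter] at h1
  exact hT.2.2 _ h1.1 hPX

include hT in
theorem fe_deg {e : ℕ} (he : e ∈ ex T) : 1 ≤ (fe T e).natDegree := by
  classical
  obtain ⟨t, ht, hte⟩ := mem_ex.1 he
  unfold fe
  have h1 : t.1 ∈ (T.filter (fun t => t.2 = e)).map Prod.fst := Multiset.mem_map_of_mem _ (Multiset.mem_filter.2 ⟨ht, hte⟩)
  have h2 : t.1.natDegree ≤ ((T.filter (fun t => t.2 = e)).map Prod.fst).prod.natDegree :=
    natDegree_le_of_dvd (Multiset.dvd_prod h1) (fe_monic hT e).ne_zero
  exact ((hT.1 t ht).1.natDegree_pos).trans_le h2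

/-- modification of the constant term -/
noncomputable def md (f : F[X]) (u : Fˣ) : F[X] := f + C (((u : F) - 1) * f.coeff 0)

theorem md_deg {f : F[X]} (hd : 1 ≤ f.natDegree) (u : Fˣ) : (md f u).natDegree = f.natDegree := by
  unfold md; exact natDegree_add_C

theorem md_monic {f : F[X]} (hf : f.Monic) (hd : 1 ≤ f.natDegree) (u : Fˣ) : (md f u).Monic := by
  unfold md
  apply hf.add_of_left
  refine lt_of_le_of_lt degree_C_le ?_
  rw [degree_eq_natDegree hf.ne_zero]
  exact_mod_cast hd

theorem md_coeff0 (f : F[X]) (u : Fˣ) : (md f u).coeff 0 = u * f.coeff 0 := by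
  unfold md
  rw [coeff_add, coeff_C_zero]; ring

theorem md_md (f : F[X]) (u : Fˣ) : md (md f u) u⁻¹ = f := by
  have h : (((u⁻¹ : Fˣ) : F) - 1) * (md f u).coeff 0 = - (((u : F) - 1) * f.coeff 0) := by
    rw [md_coeff0]
    have := Units.inv_mul u
    linear_combination (f.coeff 0) * this
  unfold md at h ⊢
  rw [h, C_neg]; ring

theorem sg_md {f : F[X]} (hd : 1 ≤ f.natDegree) (u : Fˣ) : sg (md f u) = u * sg f := by
  unfold sg
  rw [md_deg hd, md_coeff0]; ring

open Classical in
/-- modification of a type -/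
noncomputable def mo (e : ℕ) (u : Fˣ) (T : Multiset (F[X] × ℕ)) : Multiset (F[X] × ℕ) :=
  T.filter (fun t => ¬ t.2 = e) + (nf (md (fe T e) u)).map (fun P => (P, e))

variable {e : ℕ} (he : e ∈ ex T) (u : Fˣ)

include hT he in
theorem mo_adm : Adm n (mo e u T) := by
  classical
  have hm := md_monic (fe_monic hT e) (fe_deg hT he) u
  have he1 : 1 ≤ e := by
    obtain ⟨t, ht, rfl⟩ := mem_ex.1 he
    exact (hT.1 t ht).2.2
  refine ⟨?_, ?_, ?_⟩
  · intro t ht
    rcases Multiset.mem_add.1 ht with ht | ht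
    · exact hT.1 t (Multiset.mem_filter.1 ht).1
    · rw [Multiset.mem_map] at ht
      obtain ⟨P, hP, rfl⟩ := ht
      exact ⟨(nf_mem hm hP).1, (nf_mem hm hP).2.1, he1⟩
  · unfold mo
    rw [size_add, size_map_nf hm, md_deg (fe_deg hT he), ← size_map_nf (fe_monic hT e), nf_fe hT, ← size_add, add_comm, Multiset.filter_add_not]
    exact hT.2.1
  · intro t ht
    rcases Multiset.mem_add.1 ht with ht | ht
    · exact hT.2.2 t (Multiset.mem_filter.1 ht).1
    · rw [Multiset.mem_map] at ht
      obtain ⟨P, hP, rfl⟩ := ht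
      refine (X_dvd_iff_mem hm).1 ?_ P hP
      rw [md_coeff0]
      exact mul_ne_zero u.ne_zero (fe_coeff0 hT e)

include hT he in
theorem mo_dt : dt (mo e u T) = (u : F) ^ e * dt T := by
  classical
  have hm := md_monic (fe_monic hT e) (fe_deg hT he) u
  have h1 : dt T = dt (T.filter (fun t => ¬ t.2 = e)) * dt ((nf (fe T e)).map (fun P => (P, e))) := by
    rw [nf_fe hT, ← dt_add, add_comm, Multiset.filter_add_not]
  unfold mo
  rw [dt_add, h1, dt_map _ (fun P hP => (nf_mem hm hP).2.1), dt_map _ (fun P hP => (nf_mem (fe_monic hT e) hP).2.1), nf_prod hm, nf_prod (fe_monic hT e), sg_md (fe_deg hT he), mul_pow]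
  ring

include hT he in
theorem mo_ne (h0 : (md (fe T e) u).natDegree ≠ 0) : nf (md (fe T e) u) ≠ 0 := by
  intro h
  have hm := md_monic (fe_monic hT e) (fe_deg hT he) u
  have := nf_prod hm
  rw [h, Multiset.prod_zero] at this
  rw [← this] at h0
  exact h0 natDegree_one

include hT he in
theorem mo_ex : ex (mo e u T) = ex T := by
  classical
  ext k
  rw [mem_ex, mem_ex]
  constructor
  · rintro ⟨t, ht, rfl⟩
    rcases Multiset.mem_add.1 ht with ht | ht
    · exact ⟨t, (Multiset.mem_filter.1 ht).1, rfl⟩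
    · rw [Multiset.mem_map] at ht
      obtain ⟨P, hP, rfl⟩ := ht
      exact mem_ex.1 he
  · rintro ⟨t, ht, rfl⟩
    by_cases hte : t.2 = e
    · have h0 : (md (fe T e) u).natDegree ≠ 0 := by
        rw [md_deg (fe_deg hT he)]; have := fe_deg hT he; omega
      obtain ⟨P, hP⟩ := Multiset.exists_mem_of_ne_zero (mo_ne hT he u h0)
      exact ⟨(P, e), Multiset.mem_add.2 (Or.inr (Multiset.mem_map_of_mem _ hP)), hte.symm⟩
    · exact ⟨t, Multiset.mem_add.2 (Or.inl (Multiset.mem_filter.2 ⟨ht, hte⟩)), rfl⟩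

include hT he in
theorem fe_mo : fe (mo e u T) e = md (fe T e) u := by
  classical
  have hm := md_monic (fe_monic hT e) (fe_deg hT he) u
  change (((T.filter (fun t => ¬ t.2 = e) + (nf (md (fe T e) u)).map (fun P => (P, e))).filter (fun t => t.2 = e)).map Prod.fst).prod = _
  rw [Multiset.filter_add, Multiset.filter_filter, Multiset.filter_eq_nil.2, zero_add, Multiset.filter_eq_self.2, Multiset.map_map]
  · have : (Prod.fst ∘ fun P : F[X] => (P, e)) = id := rfl
    rw [this, Multiset.map_id, nf_prod hm]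
  · intro t ht
    rw [Multiset.mem_map] at ht
    obtain ⟨P, hP, rfl⟩ := ht
    rfl
  · rintro t _ ⟨h1, h2⟩
    exact h2 h1

include hT he in
theorem mo_filter : (mo e u T).filter (fun t => ¬ t.2 = e) = T.filter (fun t => ¬ t.2 = e) := by
  classical
  unfold mo
  rw [Multiset.filter_add, Multiset.filter_filter]
  have h1 : ((nf (md (fe T e) u)).map (fun P => (P, e))).filter (fun t => ¬ t.2 = e) = 0 := by
    rw [Multiset.filter_eq_nil]
    intro t ht
    rw [Multiset.mem_map] at ht
    obtain ⟨P, hP, rfl⟩ := ht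
    simp
  rw [h1, add_zero]
  simp only [and_self]

include hT he in
theorem mo_mo : mo e u⁻¹ (mo e u T) = T := by
  classical
  change (mo e u T).filter (fun t => ¬ t.2 = e) + (nf (md (fe (mo e u T) e) u⁻¹)).map (fun P => (P, e)) = T
  rw [fe_mo hT he, md_md, nf_fe hT, mo_filter hT he u, add_comm, Multiset.filter_add_not]

end mo

section count
variable [Fintype F]

theorem finite_adm (n : ℕ) : {T : Multiset (F[X] × ℕ) | Adm n T}.Finite := by
  haveI : Finite (Ty F (fun _ => True) n) := inferInstance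
  have : Finite {T : Multiset (F[X] × ℕ) // Adm n T} :=
    Finite.of_injective (β := Ty F (fun _ => True) n) (fun T : {T : Multiset (F[X] × ℕ) // Adm n T} => (⟨T.1, T.2, fun _ _ => trivial⟩ : Ty F (fun _ => True) n)) (fun a b h => Subtype.ext (congrArg (fun x : Ty F (fun _ => True) n => x.1) h))
  exact @Set.toFinite _ _ this

variable (F) in
/-- the finite set of types -/
noncomputable def At (n : ℕ) : Finset (Multiset (F[X] × ℕ)) := (finite_adm (F := F) n).toFinset

theorem mem_At {n : ℕ} {T : Multiset (F[X] × ℕ)} : T ∈ At F n ↔ Adm n T := by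
  unfold At
  rw [Set.Finite.mem_toFinset]; rfl

theorem card_At (n : ℕ) : (At F n).card = kGL F n := by
  classical
  unfold kGL
  have e : Ty F (fun _ => True) n ≃ {T // T ∈ At F n} := by
    refine Equiv.subtypeEquivRight (fun T => ?_)
    rw [mem_At]
    exact ⟨fun h => h.1, fun h => ⟨h, fun _ _ => trivial⟩⟩
  rw [Nat.card_congr e, Nat.card_eq_fintype_card, Fintype.card_coe]

open Classical in
/-- types with given exponent set and determinant -/
noncomputable def NS (F : Type u) [Field F] [Fintype F] (n : ℕ) (S : Finset ℕ) (c : Fˣ) : Finset (Multiset (F[X] × ℕ)) := (At F n).filter (fun T => ex T = S ∧ dt T = c)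

theorem NS_le {n : ℕ} {S : Finset ℕ} {e : ℕ} (he : e ∈ S) (u c : Fˣ) : (NS F n S c).card ≤ (NS F n S (u ^ e * c)).card := by
  classical
  apply Finset.card_le_card_of_injOn (mo e u)
  · intro T hT
    rw [Finset.mem_coe, NS, Finset.mem_filter, mem_At] at hT ⊢
    obtain ⟨h1, h2, h3⟩ := hT
    subst h2
    refine ⟨mo_adm h1 he u, mo_ex h1 he u, ?_⟩
    rw [mo_dt h1 he u, h3]; push_cast; rfl
  · intro T hT T' hT' h
    rw [Finset.mem_coe, NS, Finset.mem_filter, mem_At] at hT hT'
    rw [← mo_mo hT.1 (hT.2.1 ▸ he) u, h, mo_mo hT'.1 (hT'.2.1 ▸ he) u]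

theorem NS_eq {n : ℕ} {S : Finset ℕ} {e : ℕ} (he : e ∈ S) (u c : Fˣ) : (NS F n S (u ^ e * c)).card = (NS F n S c).card := by
  apply le_antisymm
  · have := NS_le (F := F) (n := n) he u⁻¹ (u ^ e * c)
    rwa [← mul_assoc, ← mul_pow, inv_mul_cancel, one_pow, one_mul] at this
  · exact NS_le he u c

/-- periods -/
def Per (F : Type u) [Field F] [Fintype F] (n : ℕ) (S : Finset ℕ) : Subgroup Fˣ where
  carrier := {v | ∀ c, (NS F n S (v * c)).card = (NS F n S c).card}
  mul_mem' := by
    intro a b ha hb c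
    rw [mul_assoc, ha, hb]
  one_mem' := by
    intro c; rw [one_mul]
  inv_mem' := by
    intro a ha c
    have := ha (a⁻¹ * c)
    rw [mul_inv_cancel_left] at this
    exact this.symm

theorem pow_gcd_mem {A : Type*} [CommGroup A] (B : Subgroup A) {a b : ℕ} (ha : ∀ v : A, v ^ a ∈ B) (hb : ∀ v : A, v ^ b ∈ B) (v : A) : v ^ (Nat.gcd a b) ∈ B := by
  have h1 : (v ^ (Nat.gcd a b) : A) = (v ^ (Nat.gcdA a b)) ^ a * (v ^ (Nat.gcdB a b)) ^ b := by
    rw [← zpow_natCast v, Nat.gcd_eq_gcd_ab, _root_.zpow_add, ← zpow_natCast, ← zpow_natCast, ← _root_.zpow_mul, ← _root_.zpow_mul, mul_comm (a : ℤ), mul_comm (b : ℤ)]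
  rw [h1]
  exact B.mul_mem (ha _) (hb _)

/-- gcd of exponents and q-1 -/
def gS (q : ℕ) (S : Finset ℕ) : ℕ := Nat.gcd (q - 1) (S.gcd id)

theorem pow_gS_mem (B : Subgroup Fˣ) (S : Finset ℕ) (h : ∀ e ∈ S, ∀ v : Fˣ, v ^ e ∈ B) (v : Fˣ) : v ^ (gS (Fintype.card F) S) ∈ B := by
  classical
  unfold gS
  apply pow_gcd_mem
  · intro v
    rw [← Fintype.card_units, pow_card_eq_one]; exact B.one_mem
  · induction S using Finset.induction_on with
    | empty => intro v; rw [Finset.gcd_empty, pow_zero]; exact B.one_mem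
    | insert a S ha ih =>
      intro v
      rw [Finset.gcd_insert]
      exact pow_gcd_mem B (h a (Finset.mem_insert_self _ _)) (ih (fun e he => h e (Finset.mem_insert_of_mem he))) v

open Classical in
theorem NS_bound (n : ℕ) (S : Finset ℕ) (c : Fˣ) : (Fintype.card F - 1) * (NS F n S c).card ≤ gS (Fintype.card F) S * ((At F n).filter (fun T => ex T = S)).card := by
  set g := gS (Fintype.card F) S with hg
  have hgd : g ∣ Fintype.card F - 1 := Nat.gcd_dvd_left _ _
  let R : Subgroup Fˣ := (powMonoidHom g : Fˣ →* Fˣ).range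
  have hRB : R ≤ Per F n S := by
    rintro _ ⟨v, rfl⟩
    exact pow_gS_mem (Per F n S) S (fun e he v c => NS_eq he v c) v
  have hcard : g * Nat.card R = Fintype.card F - 1 := by
    have h1 : R.index = (Nat.card Fˣ).gcd g := IsCyclic.index_powMonoidHom_range (G := Fˣ) g
    have h2 := R.card_mul_index
    rw [h1, Nat.card_eq_fintype_card (α := Fˣ), Fintype.card_units, Nat.gcd_eq_right hgd] at h2
    rw [mul_comm]; exact h2
  have hle : Nat.card R * (NS F n S c).card ≤ ((At F n).filter (fun T => ex T = S)).card := by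
    haveI := Fintype.ofFinite R
    have h3 : Nat.card R * (NS F n S c).card = ((Finset.univ : Finset R).sigma (fun r => NS F n S ((r : Fˣ) * c))).card := by
      rw [Finset.card_sigma, Finset.sum_congr rfl (fun r _ => hRB r.2 c), Finset.sum_const, Finset.card_univ, Nat.card_eq_fintype_card, smul_eq_mul]
    rw [h3]
    apply Finset.card_le_card_of_injOn (fun x => x.2)
    · rintro ⟨r, T⟩ hx
      rw [Finset.mem_coe, Finset.mem_sigma] at hx
      have h4 := hx.2
      rw [NS, Finset.mem_filter] at h4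
      rw [Finset.mem_coe, Finset.mem_filter]
      exact ⟨h4.1, h4.2.1⟩
    · rintro ⟨r, T⟩ hx ⟨r', T'⟩ hx' h
      rw [Finset.mem_coe, Finset.mem_sigma] at hx hx'
      have h4 := hx.2
      have h5 := hx'.2
      rw [NS, Finset.mem_filter] at h4 h5
      change T = T' at h
      subst h
      have h6 : ((r : Fˣ) * c : Fˣ) = (r' : Fˣ) * c := Units.ext (h4.2.2.symm.trans h5.2.2)
      have h7 : r = r' := Subtype.ext (mul_right_cancel h6)
      subst h7; rfl
  calc (Fintype.card F - 1) * (NS F n S c).card = g * (Nat.card R * (NS F n S c).card) := by rw [← hcard]; ring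
    _ ≤ _ := Nat.mul_le_mul_left _ hle

/-- weight of a type -/
noncomputable def wt (T : Multiset (F[X] × ℕ)) : ℕ := gS (Fintype.card F) (ex T)

open Classical in
theorem wt_bound (n : ℕ) (c : Fˣ) : (Fintype.card F - 1) * ∑ T ∈ (At F n).filter (fun T => dt T = (c : F)), wt T ≤ ∑ T ∈ At F n, wt T ^ 2 := by
  have h1 : ∑ T ∈ (At F n).filter (fun T => dt T = (c : F)), wt T = ∑ S ∈ (At F n).image ex, ∑ T ∈ ((At F n).filter (fun T => dt T = (c : F))).filter (fun T => ex T = S), wt T := by
    symm
    apply Finset.sum_fiberwise_of_maps_to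
    intro T hT
    exact Finset.mem_image_of_mem _ (Finset.mem_filter.1 hT).1
  have h2 : ∑ T ∈ At F n, wt T ^ 2 = ∑ S ∈ (At F n).image ex, ∑ T ∈ (At F n).filter (fun T => ex T = S), wt T ^ 2 := by
    symm
    apply Finset.sum_fiberwise_of_maps_to
    intro T hT
    exact Finset.mem_image_of_mem _ hT
  rw [h1, h2, Finset.mul_sum]
  apply Finset.sum_le_sum
  intro S _
  have h3 : ∑ T ∈ ((At F n).filter (fun T => dt T = (c : F))).filter (fun T => ex T = S), wt T = (NS F n S c).card * gS (Fintype.card F) S := by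
    have : ((At F n).filter (fun T => dt T = (c : F))).filter (fun T => ex T = S) = NS F n S c := by
      unfold NS
      rw [Finset.filter_filter]
      congr 1
      ext T
      exact and_comm
    rw [this]
    rw [Finset.sum_congr rfl (fun T hT => by
      have h4 : ex T = S := (Finset.mem_filter.1 hT).2.1
      change wt T = gS (Fintype.card F) S
      unfold wt; rw [h4]), Finset.sum_const, smul_eq_mul]
  have h4 : ∑ T ∈ (At F n).filter (fun T => ex T = S), wt T ^ 2 = ((At F n).filter (fun T => ex T = S)).card * gS (Fintype.card F) S ^ 2 := by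
    rw [Finset.sum_congr rfl (fun T hT => by
      have h4 : ex T = S := (Finset.mem_filter.1 hT).2
      change wt T ^ 2 = gS (Fintype.card F) S ^ 2
      unfold wt; rw [h4]), Finset.sum_const, smul_eq_mul]
  rw [h3, h4]
  have := NS_bound (F := F) n S c
  calc (Fintype.card F - 1) * ((NS F n S c).card * gS (Fintype.card F) S) = ((Fintype.card F - 1) * (NS F n S c).card) * gS (Fintype.card F) S := by ring
    _ ≤ (gS (Fintype.card F) S * ((At F n).filter (fun T => ex T = S)).card) * gS (Fintype.card F) S := Nat.mul_le_mul_right _ this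
    _ = _ := by ring

end count

end Cfsg.Agent.H15.RC
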