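import Mathlib
import Cfsg.Agent.H15_RK2
import Cfsg.Agent.H15_RC15

set_option autoImplicit false
set_option linter.all false
open Polynomial Module Matrix

namespace Cfsg.Agent.H15.RC

universe u
variable {F : Type u} [Field F] [Fintype F]

theorem q_ge : 2 ≤ Fintype.card F := Fintype.one_lt_card

theorem wt_pos (T : Multiset (F[X] × ℕ)) : 1 ≤ wt T := by
  have := q_ge (F := F)
  unfold wt gS
  exact Nat.gcd_pos_of_pos_left _ (by omega)

theorem wt_dvd_ex {T : Multiset (F[X] × ℕ)} {e : ℕ} (he : e ∈ ex T) : wt T ∣ e := by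
  unfold wt gS
  exact (Nat.gcd_dvd_right _ _).trans (Finset.gcd_dvd he)

theorem wt_dvd_q (T : Multiset (F[X] × ℕ)) : wt T ∣ Fintype.card F - 1 := Nat.gcd_dvd_left _ _

theorem dvd_n {n d : ℕ} {T : Multiset (F[X] × ℕ)} (hT : Adm n T) (h : ∀ e ∈ ex T, d ∣ e) : d ∣ n := by
  rw [← hT.2.1]
  unfold size
  apply Multiset.dvd_sum
  intro x hx
  rw [Multiset.mem_map] at hx
  obtain ⟨t, ht, rfl⟩ := hx
  exact (h t.2 (mem_ex.2 ⟨t, ht, rfl⟩)).mul_right _

open Classical in
theorem card_dvd {n d : ℕ} (hd : 1 ≤ d) (hdn : d ∣ n) : ((At F n).filter (fun T => ∀ e ∈ ex T, d ∣ e)).card ≤ kGL F (n / d) := by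
  rw [← card_At]
  apply Finset.card_le_card_of_injOn (fun T => T.map (fun t => (t.1, t.2 / d)))
  · intro T hT
    rw [Finset.mem_coe, Finset.mem_filter, mem_At] at hT
    obtain ⟨h1, h2⟩ := hT
    have h3 : ∀ t ∈ T, d ∣ t.2 := fun t ht => h2 t.2 (mem_ex.2 ⟨t, ht, rfl⟩)
    rw [Finset.mem_coe, mem_At]
    refine ⟨?_, ?_, ?_⟩
    · intro t ht
      rw [Multiset.mem_map] at ht
      obtain ⟨s, hs, rfl⟩ := ht
      refine ⟨(h1.1 s hs).1, (h1.1 s hs).2.1, ?_⟩
      exact Nat.div_pos (Nat.le_of_dvd (h1.1 s hs).2.2 (h3 s hs)) hd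
    · have h4 : d * size (T.map (fun t => (t.1, t.2 / d))) = size T := by
        unfold size
        rw [Multiset.map_map, ← Multiset.sum_map_mul_left]
        congr 1
        apply Multiset.map_congr rfl
        intro t ht
        simp only [Function.comp_apply]
        rw [← mul_assoc, Nat.mul_div_cancel' (h3 t ht)]
      rw [h1.2.1] at h4
      rw [← h4, Nat.mul_div_cancel_left _ hd]
    · intro t ht
      rw [Multiset.mem_map] at ht
      obtain ⟨s, hs, rfl⟩ := ht
      exact h1.2.2 s hs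
  · intro T hT T' hT' h
    rw [Finset.mem_coe, Finset.mem_filter, mem_At] at hT hT'
    have key : ∀ T : Multiset (F[X] × ℕ), (∀ e ∈ ex T, d ∣ e) → (T.map (fun t => (t.1, t.2 / d))).map (fun t => (t.1, d * t.2)) = T := by
      intro T h2
      rw [Multiset.map_map]
      conv_rhs => rw [← Multiset.map_id T]
      apply Multiset.map_congr rfl
      intro t ht
      simp only [Function.comp_apply, id]
      rw [Nat.mul_div_cancel' (h2 t.2 (mem_ex.2 ⟨t, ht, rfl⟩))]
    have h' : T.map (fun t => (t.1, t.2 / d)) = T'.map (fun t => (t.1, t.2 / d)) := h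
    rw [← key T hT.2, h', key T' hT'.2]

/-- the bound for the weighted count -/
noncomputable def Gam (F : Type u) [Field F] [Fintype F] (n : ℕ) : ℕ := kGL F n + ∑ d ∈ (Nat.divisors (Nat.gcd n (Fintype.card F - 1))).erase 1, (d ^ 2 - 1) * kGL F (n / d)

theorem sum_wt_sq (n : ℕ) (hn : 1 ≤ n) : ∑ T ∈ At F n, wt T ^ 2 ≤ Gam F n := by
  classical
  set D := (Nat.divisors (Nat.gcd n (Fintype.card F - 1))).erase 1 with hD
  have h1 : ∀ T ∈ At F n, wt T ^ 2 ≤ 1 + ∑ d ∈ D, if (∀ e ∈ ex T, d ∣ e) then d ^ 2 - 1 else 0 := by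
    intro T hT
    rw [mem_At] at hT
    have hw := wt_pos T
    by_cases h : wt T = 1
    · rw [h]; simp
    · have h2 : wt T ∈ D := by
        rw [hD, Finset.mem_erase, Nat.mem_divisors]
        refine ⟨h, Nat.dvd_gcd (dvd_n hT (fun e he => wt_dvd_ex he)) (wt_dvd_q T), ?_⟩
        exact (Nat.gcd_pos_of_pos_left _ hn).ne'
      have h3 : (if (∀ e ∈ ex T, wt T ∣ e) then wt T ^ 2 - 1 else 0) ≤ ∑ d ∈ D, if (∀ e ∈ ex T, d ∣ e) then d ^ 2 - 1 else 0 :=
        Finset.single_le_sum (f := fun d => if (∀ e ∈ ex T, d ∣ e) then d ^ 2 - 1 else 0) (fun _ _ => Nat.zero_le _) h2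
      rw [if_pos (fun e he => wt_dvd_ex he)] at h3
      have h4 : 1 ≤ wt T ^ 2 := Nat.one_le_pow _ _ hw
      omega
  refine (Finset.sum_le_sum h1).trans ?_
  rw [Finset.sum_add_distrib, Finset.sum_const, smul_eq_mul, mul_one, card_At, Finset.sum_comm]
  unfold Gam
  apply Nat.add_le_add_left
  apply Finset.sum_le_sum
  intro d hd
  rw [Finset.mem_erase, Nat.mem_divisors] at hd
  rw [← Finset.sum_filter, Finset.sum_const, smul_eq_mul, mul_comm]
  apply Nat.mul_le_mul_left
  exact card_dvd (Nat.pos_of_dvd_of_pos hd.2.1 (Nat.gcd_pos_of_pos_left _ hn)) (hd.2.1.trans (Nat.gcd_dvd_left _ _))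

/-- Main weighted estimate -/
theorem wt_le (n : ℕ) (hn : 1 ≤ n) (c : Fˣ) : by
    classical
    exact (Fintype.card F - 1) * ∑ T ∈ (At F n).filter (fun T => dt T = (c : F)), wt T ≤ Gam F n := by
  classical
  exact (wt_bound n c).trans (sum_wt_sq n hn)

section sl
variable {n : ℕ}

theorem split_le (hn : 1 ≤ n) (u : GL (Fin n) F) {T : Multiset (F[X] × ℕ)} (hT : MT (u : Matrix (Fin n) (Fin n) F) T) (hu : Matrix.GeneralLinearGroup.det u = 1) :
    Nat.card {C : ConjClasses (Matrix.SpecialLinearGroup (Fin n) F) // ∃ v : Matrix.SpecialLinearGroup (Fin n) F, ConjClasses.mk v = C ∧ IsConj u (Matrix.SpecialLinearGroup.toGL v)} ≤ wt T := by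
  classical
  rw [card_split (Matrix.SpecialLinearGroup.toGL) (Matrix.GeneralLinearGroup.det : GL (Fin n) F →* Fˣ) ?_ ?_ ?_ u hu]
  · set B := Subgroup.map (Matrix.GeneralLinearGroup.det : GL (Fin n) F →* Fˣ) (Subgroup.centralizer {u}) with hB
    have h1 : ∀ e ∈ ex T, ∀ v : Fˣ, v ^ e ∈ B := by
      intro e he v
      obtain ⟨t, ht, rfl⟩ := mem_ex.1 he
      obtain ⟨c, hc1, hc2⟩ := cent_det hT ht v
      rw [hB, Subgroup.mem_map]
      refine ⟨c, ?_, hc2⟩
      rw [Subgroup.mem_centralizer_iff]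
      rintro y (rfl : y = u)
      exact hc1.symm
    have h2 := pow_gS_mem B (ex T) h1
    have h3 : (powMonoidHom (wt T) : Fˣ →* Fˣ).range ≤ B := by
      rintro _ ⟨v, rfl⟩
      exact h2 v
    have h4 := Subgroup.index_dvd_of_le h3
    have h5 : (powMonoidHom (wt T) : Fˣ →* Fˣ).range.index = wt T := by
      rw [IsCyclic.index_powMonoidHom_range, Nat.card_eq_fintype_card, Fintype.card_units]
      exact Nat.gcd_eq_right (wt_dvd_q T)
    rw [h5] at h4
    exact Nat.le_of_dvd (wt_pos T) h4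
  · intro a b hab
    have h1 := congrArg (fun g : GL (Fin n) F => (g : Matrix (Fin n) (Fin n) F)) hab
    exact Subtype.ext h1
  · intro c
    haveI : Nonempty (Fin n) := ⟨⟨0, by omega⟩⟩
    let i0 : Fin n := ⟨0, by omega⟩
    let dg : Fin n → Fˣ := Function.update 1 i0 c
    refine ⟨⟨Matrix.diagonal (fun i => (dg i : F)), Matrix.diagonal (fun i => ((dg i)⁻¹ : Fˣ).val), ?_, ?_⟩, ?_⟩
    · rw [Matrix.diagonal_mul_diagonal]; simp
    · rw [Matrix.diagonal_mul_diagonal]; simp
    · apply Units.ext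
      rw [Matrix.GeneralLinearGroup.val_det_apply]
      change (Matrix.diagonal (fun i => (dg i : F))).det = c
      rw [Matrix.det_diagonal, ← Units.coe_prod, Finset.prod_update_of_mem (Finset.mem_univ _)]
      simp
  · intro g
    constructor
    · rintro ⟨v, rfl⟩
      apply Units.ext
      exact v.2
    · intro h
      have h1 : (g : Matrix (Fin n) (Fin n) F).det = 1 := by
        have := congrArg Units.val h
        rwa [Matrix.GeneralLinearGroup.val_det_apply] at this
      exact ⟨⟨g, h1⟩, Units.ext rfl⟩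

/-- type of an SL-class -/
noncomputable def tS (C : ConjClasses (Matrix.SpecialLinearGroup (Fin n) F)) : Multiset (F[X] × ℕ) := typ (C.map Matrix.SpecialLinearGroup.toGL)

theorem tS_mk (v : Matrix.SpecialLinearGroup (Fin n) F) : MT (v : Matrix (Fin n) (Fin n) F) (tS (ConjClasses.mk v)) :=
  typ_spec (Matrix.SpecialLinearGroup.toGL v)

theorem tS_adm (C : ConjClasses (Matrix.SpecialLinearGroup (Fin n) F)) : Adm n (tS C) := typ_adm _

theorem tS_dt (C : ConjClasses (Matrix.SpecialLinearGroup (Fin n) F)) : dt (tS C) = 1 := by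
  obtain ⟨v, rfl⟩ := ConjClasses.mk_surjective C
  rw [← MT_det (tS_mk v)]
  exact v.2

theorem exists_sl_of_type {T : Multiset (F[X] × ℕ)} (hT : Adm n T) (hd : dt T = 1) : ∃ v : Matrix.SpecialLinearGroup (Fin n) F, MT (v : Matrix (Fin n) (Fin n) F) T := by
  obtain ⟨g, hg⟩ := exists_of_adm hT
  exact ⟨⟨g, by rw [MT_det hg, hd]⟩, hg⟩

theorem fiber_le (hn : 1 ≤ n) {T : Multiset (F[X] × ℕ)} (hT : Adm n T) (hd : dt T = 1) :
    Nat.card {C : ConjClasses (Matrix.SpecialLinearGroup (Fin n) F) // tS C = T} ≤ wt T := by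
  obtain ⟨v0, hv0⟩ := exists_sl_of_type hT hd
  have h1 : Matrix.GeneralLinearGroup.det (Matrix.SpecialLinearGroup.toGL v0) = 1 := Units.ext v0.2
  refine le_trans (le_of_eq ?_) (split_le hn (Matrix.SpecialLinearGroup.toGL v0) hv0 h1)
  refine Nat.card_congr (Equiv.subtypeEquivRight (fun C => ?_))
  constructor
  · rintro rfl
    obtain ⟨v, rfl⟩ := ConjClasses.mk_surjective C
    exact ⟨v, rfl, (isConj_iff_type _ _ hv0 (tS_mk v)).2 rfl⟩
  · rintro ⟨v, rfl, hv⟩
    exact ((isConj_iff_type _ _ hv0 (tS_mk v)).1 hv).symm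

open Classical in
theorem card_SL_le (hn : 1 ≤ n) : Nat.card (ConjClasses (Matrix.SpecialLinearGroup (Fin n) F)) ≤ ∑ T ∈ (At F n).filter (fun T => dt T = ((1 : Fˣ) : F)), wt T := by
  haveI := Fintype.ofFinite (ConjClasses (Matrix.SpecialLinearGroup (Fin n) F))
  rw [Nat.card_eq_fintype_card, ← Finset.card_univ, Finset.card_eq_sum_card_fiberwise (f := fun C => tS C) (t := (At F n).filter (fun T => dt T = ((1 : Fˣ) : F)))]
  · apply Finset.sum_le_sum
    intro T hT
    rw [Finset.mem_filter, mem_At] at hT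
    have := fiber_le hn hT.1 (by rw [hT.2]; rfl)
    rwa [Nat.card_eq_fintype_card, Fintype.card_subtype] at this
  · intro C _
    rw [Finset.mem_coe, Finset.mem_filter, mem_At]
    exact ⟨tS_adm C, by rw [tS_dt C]; rfl⟩

theorem main_bound (hn : 1 ≤ n) : (Fintype.card F - 1) * Nat.card (ConjClasses (Matrix.SpecialLinearGroup (Fin n) F)) ≤ Gam F n := by
  classical
  exact (Nat.mul_le_mul_left _ (card_SL_le hn)).trans (wt_le n hn 1)

end sl

end Cfsg.Agent.H15.RC
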