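import Mathlib
import Cfsg.Agent.H15_RK3

set_option autoImplicit false
set_option linter.all false
open Polynomial Module Matrix

namespace Cfsg.Agent.H15.RC

universe u

/-- error term -/
def EE (q n : ℕ) : ℕ := ∑ d ∈ (Nat.divisors (Nat.gcd n (q - 1))).erase 1, (d ^ 2 - 1) * (q ^ (n / d) - 1)

theorem Gam_le {F : Type u} [Field F] [Fintype F] (n : ℕ) (hn : 1 ≤ n) : Gam F n ≤ (Fintype.card F ^ n - 1) + EE (Fintype.card F) n := by
  unfold Gam EE
  apply Nat.add_le_add
  · have := kGL_le (F := F) n hn; omega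
  · apply Finset.sum_le_sum
    intro d hd
    rw [Finset.mem_erase, Nat.mem_divisors] at hd
    apply Nat.mul_le_mul_left
    have hdn : d ∣ n := hd.2.1.trans (Nat.gcd_dvd_left _ _)
    have h1 : 1 ≤ n / d := Nat.div_pos (Nat.le_of_dvd hn hdn) (Nat.pos_of_dvd_of_pos hdn hn)
    have := kGL_le (F := F) (n / d) h1
    omega

theorem EE_two {n : ℕ} : EE 2 n = 0 := by
  unfold EE
  simp

/-- large n -/
theorem EE_large {q n : ℕ} (hq : 3 ≤ q) (hn : 7 ≤ n) : EE q n ≤ q ^ (n - 1) := by
  unfold EE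
  set D := Nat.gcd n (q - 1) with hD
  have hDq : D ≤ q - 1 := Nat.le_of_dvd (by omega) (Nat.gcd_dvd_right _ _)
  have hD0 : 0 < D := Nat.gcd_pos_of_pos_left _ (by omega)
  have h1 : ∀ d ∈ (Nat.divisors D).erase 1, (d ^ 2 - 1) * (q ^ (n / d) - 1) ≤ q ^ 2 * q ^ (n / 2) := by
    intro d hd
    rw [Finset.mem_erase, Nat.mem_divisors] at hd
    have hd0 : d ≠ 0 := by rintro rfl; exact hd.2.2 (Nat.eq_zero_of_zero_dvd hd.2.1)
    have hd2 : 2 ≤ d := by have := hd.1; omega
    have hdD : d ≤ D := Nat.le_of_dvd hD0 hd.2.1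
    apply Nat.mul_le_mul
    · have : d ^ 2 ≤ q ^ 2 := Nat.pow_le_pow_left (by omega) 2
      omega
    · have : q ^ (n / d) ≤ q ^ (n / 2) := Nat.pow_le_pow_right (by omega) (Nat.div_le_div_left hd2 (by norm_num))
      omega
  refine (Finset.sum_le_sum h1).trans ?_
  rw [Finset.sum_const, smul_eq_mul]
  have h2 : ((Nat.divisors D).erase 1).card ≤ q := by
    refine (Finset.card_erase_le).trans ((Nat.card_divisors_le_self D).trans (by omega))
  calc ((Nat.divisors D).erase 1).card * (q ^ 2 * q ^ (n / 2)) ≤ q * (q ^ 2 * q ^ (n / 2)) := Nat.mul_le_mul_right _ h2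
    _ = q ^ (3 + n / 2) := by ring
    _ ≤ q ^ (n - 1) := Nat.pow_le_pow_right (by omega) (by omega)

theorem EE_bound {q n : ℕ} (hq : 2 ≤ q) (hn : 3 ≤ n) (h34 : ¬ (n = 3 ∧ q = 4)) : EE q n + 3 * q ^ (n - 2) + 1 ≤ 2 * q ^ (n - 1) + q := by
  rcases Nat.lt_or_ge q 3 with h2 | h3
  · have : q = 2 := by omega
    subst this
    rw [EE_two]
    obtain ⟨m, rfl⟩ := Nat.exists_eq_add_of_le hn
    have e1 : 3 + m - 2 = m + 1 := by omega
    have e2 : 3 + m - 1 = m + 2 := by omega
    rw [e1, e2]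
    have : 2 ^ (m + 2) = 2 * 2 ^ (m + 1) := by ring
    rw [this]
    have : 0 < 2 ^ (m + 1) := by positivity
    omega
  rcases Nat.lt_or_ge n 7 with h7 | h7
  · have hg0 : Nat.gcd n (q - 1) ∣ n := Nat.gcd_dvd_left _ _
    have hgq : Nat.gcd n (q - 1) ∣ q - 1 := Nat.gcd_dvd_right _ _
    have hle := Nat.le_of_dvd (by omega) hgq
    unfold EE
    interval_cases n
    · -- n = 3
      have h := (Nat.dvd_prime Nat.prime_three).1 hg0
      rcases h with h | h
      · rw [h]; simp; nlinarith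
      · rw [h] at hle ⊢
        have e1 : (Nat.divisors 3).erase 1 = {3} := by decide
        rw [e1, Finset.sum_singleton]
        have hq5 : 5 ≤ q := by
          have : q ≠ 4 := fun h => h34 ⟨rfl, h⟩
          omega
        obtain ⟨m, rfl⟩ := Nat.exists_eq_add_of_le hq5
        simp
        nlinarith
    · -- n = 4
      have h : Nat.gcd 4 (q - 1) ∈ Nat.divisors 4 := Nat.mem_divisors.2 ⟨hg0, by norm_num⟩
      have e0 : Nat.divisors 4 = {1, 2, 4} := by decide
      rw [e0] at h
      simp only [Finset.mem_insert, Finset.mem_singleton] at h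
      rcases h with h | h | h
      · rw [h]; simp
        obtain ⟨m, rfl⟩ := Nat.exists_eq_add_of_le h3
        nlinarith [sq_nonneg m]
      · rw [h] at hle ⊢
        have e1 : (Nat.divisors 2).erase 1 = {2} := by decide
        rw [e1, Finset.sum_singleton]
        obtain ⟨m, rfl⟩ := Nat.exists_eq_add_of_le h3
        have : (3 + m) ^ (4 / 2) - 1 = m ^ 2 + 6 * m + 8 := by
          have : (3 + m) ^ (4 / 2) = m ^ 2 + 6 * m + 9 := by norm_num; ring
          omega
        rw [this]
        norm_num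
        nlinarith [sq_nonneg m]
      · rw [h] at hle ⊢
        have e1 : (Nat.divisors 4).erase 1 = {2, 4} := by decide
        rw [e1, Finset.sum_insert (by decide), Finset.sum_singleton]
        obtain ⟨m, rfl⟩ := Nat.exists_eq_add_of_le (show 5 ≤ q by omega)
        have e2 : (5 + m) ^ (4 / 2) - 1 = m ^ 2 + 10 * m + 24 := by
          have : (5 + m) ^ (4 / 2) = m ^ 2 + 10 * m + 25 := by norm_num; ring
          omega
        have e3 : (5 + m) ^ (4 / 4) - 1 = m + 4 := by
          have : (5 + m) ^ (4 / 4) = m + 5 := by norm_num; ring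
          omega
        rw [e2, e3]
        norm_num
        nlinarith [sq_nonneg m]
    · -- n = 5
      have h := (Nat.dvd_prime Nat.prime_five).1 hg0
      rcases h with h | h
      · rw [h]; simp
        obtain ⟨m, rfl⟩ := Nat.exists_eq_add_of_le h3
        have : 0 ≤ m := Nat.zero_le _
        nlinarith [sq_nonneg m, Nat.zero_le (m^3), Nat.zero_le (m^4)]
      · rw [h] at hle ⊢
        have e1 : (Nat.divisors 5).erase 1 = {5} := by decide
        rw [e1, Finset.sum_singleton]
        obtain ⟨m, rfl⟩ := Nat.exists_eq_add_of_le (show 6 ≤ q by omega)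
        have e3 : (6 + m) ^ (5 / 5) - 1 = m + 5 := by
          have : (6 + m) ^ (5 / 5) = m + 6 := by norm_num; ring
          omega
        rw [e3]
        norm_num
        nlinarith [sq_nonneg m, Nat.zero_le (m^3), Nat.zero_le (m^4)]
    · -- n = 6
      have h : Nat.gcd 6 (q - 1) ∈ Nat.divisors 6 := Nat.mem_divisors.2 ⟨hg0, by norm_num⟩
      have e0 : Nat.divisors 6 = {1, 2, 3, 6} := by decide
      rw [e0] at h
      simp only [Finset.mem_insert, Finset.mem_singleton] at h
      rcases h with h | h | h | h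
      · rw [h]; simp
        obtain ⟨m, rfl⟩ := Nat.exists_eq_add_of_le h3
        nlinarith [sq_nonneg m, Nat.zero_le (m^3), Nat.zero_le (m^4), Nat.zero_le (m^5)]
      · rw [h] at hle ⊢
        have e1 : (Nat.divisors 2).erase 1 = {2} := by decide
        rw [e1, Finset.sum_singleton]
        obtain ⟨m, rfl⟩ := Nat.exists_eq_add_of_le h3
        have e2 : (3 + m) ^ (6 / 2) - 1 = m ^ 3 + 9 * m ^ 2 + 27 * m + 26 := by
          have : (3 + m) ^ (6 / 2) = m ^ 3 + 9 * m ^ 2 + 27 * m + 27 := by norm_num; ring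
          omega
        rw [e2]
        norm_num
        nlinarith [sq_nonneg m, Nat.zero_le (m^3), Nat.zero_le (m^4), Nat.zero_le (m^5)]
      · rw [h] at hle ⊢
        have e1 : (Nat.divisors 3).erase 1 = {3} := by decide
        rw [e1, Finset.sum_singleton]
        obtain ⟨m, rfl⟩ := Nat.exists_eq_add_of_le (show 4 ≤ q by omega)
        have e2 : (4 + m) ^ (6 / 3) - 1 = m ^ 2 + 8 * m + 15 := by
          have : (4 + m) ^ (6 / 3) = m ^ 2 + 8 * m + 16 := by norm_num; ring
          omega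
        rw [e2]
        norm_num
        nlinarith [sq_nonneg m, Nat.zero_le (m^3), Nat.zero_le (m^4), Nat.zero_le (m^5)]
      · rw [h] at hle ⊢
        have e1 : (Nat.divisors 6).erase 1 = {2, 3, 6} := by decide
        rw [e1, Finset.sum_insert (by decide), Finset.sum_insert (by decide), Finset.sum_singleton]
        obtain ⟨m, rfl⟩ := Nat.exists_eq_add_of_le (show 7 ≤ q by omega)
        have e2 : (7 + m) ^ (6 / 2) - 1 = m ^ 3 + 21 * m ^ 2 + 147 * m + 342 := by
          have : (7 + m) ^ (6 / 2) = m ^ 3 + 21 * m ^ 2 + 147 * m + 343 := by norm_num; ring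
          omega
        have e3 : (7 + m) ^ (6 / 3) - 1 = m ^ 2 + 14 * m + 48 := by
          have : (7 + m) ^ (6 / 3) = m ^ 2 + 14 * m + 49 := by norm_num; ring
          omega
        have e4 : (7 + m) ^ (6 / 6) - 1 = m + 6 := by
          have : (7 + m) ^ (6 / 6) = m + 7 := by norm_num; ring
          omega
        rw [e2, e3, e4]
        norm_num
        nlinarith [sq_nonneg m, Nat.zero_le (m^3), Nat.zero_le (m^4), Nat.zero_le (m^5)]
  · have h1 := EE_large h3 h7
    have h2 : q ^ (n - 1) = q * q ^ (n - 2) := by rw [← pow_succ']; congr 1; omega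
    have h4 : 3 * q ^ (n - 2) ≤ q * q ^ (n - 2) := Nat.mul_le_mul_right _ h3
    omega

/-- conversion -/
theorem conv_bound {q n x : ℕ} (hq : 2 ≤ q) (hn : 3 ≤ n) (h34 : ¬ (n = 3 ∧ q = 4)) (h : (q - 1) * x ≤ (q ^ n - 1) + EE q n) : x ≤ q ^ (n - 1) + 3 * q ^ (n - 2) := by
  by_contra hx
  push Not at hx
  have h1 := EE_bound hq hn h34
  have h2 : (q - 1) * (q ^ (n - 1) + 3 * q ^ (n - 2) + 1) ≤ (q - 1) * x := Nat.mul_le_mul_left _ hx
  obtain ⟨m, rfl⟩ := Nat.exists_eq_add_of_le hq
  obtain ⟨k, rfl⟩ := Nat.exists_eq_add_of_le hn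
  have e1 : 3 + k - 1 = k + 2 := by omega
  have e2 : 3 + k - 2 = k + 1 := by omega
  have e3 : 2 + m - 1 = m + 1 := by omega
  rw [e1, e2] at h1 h2
  rw [e3] at h h2
  have e4 : (2 + m) ^ (k + 2) = (2 + m) * (2 + m) ^ (k + 1) := by ring
  have e5 : (2 + m) ^ (3 + k) = (2 + m) * ((2 + m) * (2 + m) ^ (k + 1)) := by ring
  have hpos : 0 < (2 + m) ^ (k + 1) := by positivity
  rw [e4] at h1 h2
  rw [e5] at h
  set y := (2 + m) ^ (k + 1) with hy
  have h5 : (m + 1) * ((2 + m) * y + 3 * y + 1) ≤ (2 + m) * ((2 + m) * y) - 1 + EE (2 + m) (3 + k) := h2.trans h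
  have h6 : 1 ≤ (2 + m) * ((2 + m) * y) := Nat.succ_le_of_lt (by positivity)
  zify [h6] at h5 h1
  nlinarith

end Cfsg.Agent.H15.RC
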