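import Mathlib
import Cfsg.Agent.H15_RK4

set_option autoImplicit false
set_option linter.all false
open Polynomial Module Matrix

namespace Cfsg.Agent.H15.RC

universe u
variable {F : Type u} [Field F] [Fintype F]

theorem kGL_three (hq : Fintype.card F = 4) : kGL F 3 ≤ 60 := by
  rw [kGL_eq]
  simp [KK_succ, Finset.sum_range_succ, KK_zero_left, cc, hq]

theorem bound_three {n x : ℕ} (hn : 3 ≤ n) (h : (Fintype.card F - 1) * x ≤ Gam F n) : x ≤ Fintype.card F ^ (n - 1) + 3 * Fintype.card F ^ (n - 2) := by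
  by_cases h34 : n = 3 ∧ Fintype.card F = 4
  · obtain ⟨rfl, hq⟩ := h34
    have h1 : Gam F 3 ≤ 84 := by
      unfold Gam
      rw [hq]
      have e1 : (Nat.divisors (Nat.gcd 3 (4 - 1))).erase 1 = {3} := by decide
      rw [e1, Finset.sum_singleton]
      have h2 := kGL_three hq
      have h3 := kGL_le (F := F) 1 le_rfl
      rw [hq] at h3
      norm_num at h3 ⊢
      omega
    rw [hq] at h ⊢
    norm_num at h ⊢
    omega
  · exact conv_bound (q_ge (F := F)) hn h34 (h.trans (Gam_le n (by omega)))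

theorem bound_one {x : ℕ} (h : (Fintype.card F - 1) * x ≤ Gam F 1) : x ≤ 1 := by
  have h1 := h.trans (Gam_le (F := F) 1 le_rfl)
  have hq := q_ge (F := F)
  unfold EE at h1
  rw [Nat.gcd_one_left] at h1
  have e1 : (Nat.divisors 1).erase 1 = ∅ := by decide
  rw [e1, Finset.sum_empty, add_zero, pow_one] at h1
  by_contra hx
  push Not at hx
  have : (Fintype.card F - 1) * 2 ≤ (Fintype.card F - 1) * x := Nat.mul_le_mul_left _ hx
  omega

theorem bound_two {x : ℕ} (h : (Fintype.card F - 1) * x ≤ Gam F 2) : x ≤ Fintype.card F + 1 ∨ (Odd (Fintype.card F) ∧ x ≤ Fintype.card F + 4) := by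
  have h1 := h.trans (Gam_le (F := F) 2 (by norm_num))
  have hq := q_ge (F := F)
  set q := Fintype.card F with hqd
  unfold EE at h1
  have h2 : Nat.gcd 2 (q - 1) ∣ 2 := Nat.gcd_dvd_left _ _
  rcases (Nat.dvd_prime Nat.prime_two).1 h2 with h3 | h3
  · rw [h3] at h1
    have e1 : (Nat.divisors 1).erase 1 = ∅ := by decide
    rw [e1, Finset.sum_empty, add_zero] at h1
    left
    by_contra hx
    push Not at hx
    obtain ⟨m, hm⟩ := Nat.exists_eq_add_of_le hq
    rw [hm] at h1 hx
    have e3 : 2 + m - 1 = m + 1 := by omega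
    rw [e3] at h1
    have h4 : (m + 1) * (m + 4) ≤ (m + 1) * x := Nat.mul_le_mul_left _ (by omega)
    have h5 : (2 + m) ^ 2 - 1 = m ^ 2 + 4 * m + 3 := by
      have : (2 + m) ^ 2 = m ^ 2 + 4 * m + 4 := by ring
      omega
    rw [h5] at h1
    nlinarith
  · right
    have h4 : 2 ∣ q - 1 := by rw [← h3]; exact Nat.gcd_dvd_right _ _
    have hodd : Odd q := by
      obtain ⟨k, hk⟩ := h4
      exact ⟨k, by omega⟩
    refine ⟨hodd, ?_⟩
    rw [h3] at h1
    have e1 : (Nat.divisors 2).erase 1 = {2} := by decide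
    rw [e1, Finset.sum_singleton] at h1
    by_contra hx
    push Not at hx
    obtain ⟨m, hm⟩ := Nat.exists_eq_add_of_le hq
    rw [hm] at h1 hx
    have e3 : 2 + m - 1 = m + 1 := by omega
    rw [e3] at h1
    have h4 : (m + 1) * (m + 7) ≤ (m + 1) * x := Nat.mul_le_mul_left _ (by omega)
    have h5 : (2 + m) ^ 2 - 1 = m ^ 2 + 4 * m + 3 := by
      have : (2 + m) ^ 2 = m ^ 2 + 4 * m + 4 := by ring
      omega
    have h6 : (2 + m) ^ (2 / 2) - 1 = m + 1 := by
      have : (2 + m) ^ (2 / 2) = m + 2 := by norm_num; ring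
      omega
    rw [h5, h6] at h1
    norm_num at h1
    nlinarith

theorem bound_all {n x : ℕ} (hn : 1 ≤ n) (h : (Fintype.card F - 1) * x ≤ Gam F n) : 2 * x ≤ 5 * Fintype.card F ^ (n - 1) := by
  have hq := q_ge (F := F)
  rcases Nat.lt_or_ge n 3 with h3 | h3
  · interval_cases n
    · have := bound_one h
      simp; omega
    · have h4 : Fintype.card F ^ (2 - 1) = Fintype.card F := by norm_num
      rw [h4]
      rcases bound_two h with h2 | ⟨⟨k, hk⟩, h2⟩
      · omega
      · omega
  · have h1 := bound_three h3 h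
    have h2 : Fintype.card F ^ (n - 1) = Fintype.card F * Fintype.card F ^ (n - 2) := by rw [← pow_succ']; congr 1; omega
    have h4 : 2 * Fintype.card F ^ (n - 2) ≤ Fintype.card F * Fintype.card F ^ (n - 2) := Nat.mul_le_mul_right _ hq
    omega

/-- lower bound -/
theorem sl_lower {n : ℕ} (hn : 2 ≤ n) : Fintype.card F ^ (n - 1) < Nat.card (ConjClasses (Matrix.SpecialLinearGroup (Fin n) F)) := by
  classical
  have hq := q_ge (F := F)
  let A : Type u := {f : PP F n // sg f.1 = 1}
  haveI hfPP : Finite (PP F n) := by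
    haveI := finite_monic (F := F) n
    exact Finite.of_injective (fun f : PP F n => (⟨f.1, f.2.1, f.2.2.1⟩ : {f : F[X] // f.Monic ∧ f.natDegree = n})) (fun a b h => Subtype.ext (congrArg (fun x : {f : F[X] // f.Monic ∧ f.natDegree = n} => x.1) h))
  haveI : Finite A := Subtype.finite
  -- lower bound on A
  have hsg : ∀ f : PP F n, sg f.1 ≠ 0 := by
    intro f
    unfold sg
    exact mul_ne_zero (pow_ne_zero _ (neg_ne_zero.2 one_ne_zero)) f.2.2.2
  have hA : Fintype.card F ^ (n - 1) ≤ Nat.card A := by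
    have hd : ∀ f : PP F n, 1 ≤ f.1.natDegree := fun f => by rw [f.2.2.1]; omega
    let φ : PP F n → Fˣ × A := fun f => (Units.mk0 (sg f.1) (hsg f),
      ⟨⟨md f.1 (Units.mk0 (sg f.1) (hsg f))⁻¹, md_monic f.2.1 (hd f) _, by rw [md_deg (hd f)]; exact f.2.2.1, by
        rw [md_coeff0]; exact mul_ne_zero (Units.ne_zero _) f.2.2.2⟩, by
        change sg (md f.1 (Units.mk0 (sg f.1) (hsg f))⁻¹) = 1
        rw [sg_md (hd f), Units.val_inv_eq_inv_val, Units.val_mk0, inv_mul_cancel₀ (hsg f)]⟩)
    have hφ : Function.Injective φ := by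
      intro f g hfg
      have h1 : Units.mk0 (sg f.1) (hsg f) = Units.mk0 (sg g.1) (hsg g) := congrArg Prod.fst hfg
      have h2 : md f.1 (Units.mk0 (sg f.1) (hsg f))⁻¹ = md g.1 (Units.mk0 (sg g.1) (hsg g))⁻¹ := congrArg (fun x : Fˣ × A => x.2.1.1) hfg
      apply Subtype.ext
      have h3 := md_md f.1 (Units.mk0 (sg f.1) (hsg f))⁻¹
      have h4 := md_md g.1 (Units.mk0 (sg g.1) (hsg g))⁻¹
      rw [← h3, h2, h1, h4]
    have h1 := Nat.card_le_card_of_injective φ hφ
    rw [Nat.card_prod, card_PP, Nat.card_eq_fintype_card (α := Fˣ), Fintype.card_units] at h1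
    unfold cc at h1
    rw [if_neg (by omega)] at h1
    exact Nat.le_of_mul_le_mul_left h1 (by omega)
  have hmk : ∀ f : A, Adm n ((nf f.1.1).map (fun P => (P, 1))) := by
    intro f
    refine ⟨?_, ?_, ?_⟩
    · intro t ht
      rw [Multiset.mem_map] at ht
      obtain ⟨P, hP, rfl⟩ := ht
      exact ⟨(nf_mem f.1.2.1 hP).1, (nf_mem f.1.2.1 hP).2.1, le_rfl⟩
    · rw [size_map_nf f.1.2.1, one_mul, f.1.2.2.1]
    · intro t ht
      rw [Multiset.mem_map] at ht
      obtain ⟨P, hP, rfl⟩ := ht
      exact (X_dvd_iff_mem f.1.2.1).1 f.1.2.2.2 P hP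
  have hdt : ∀ f : A, dt ((nf f.1.1).map (fun P => (P, 1))) = 1 := by
    intro f
    rw [dt_map _ (fun P hP => (nf_mem f.1.2.1 hP).2.1), nf_prod f.1.2.1, f.2, one_pow]
  have hreg : dt ({((X - 1 : F[X]), n)} : Multiset (F[X] × ℕ)) = 1 := by
    unfold dt
    rw [Multiset.map_singleton, Multiset.prod_singleton, deg_X1]
    simp
  choose v hv using fun f : A => exists_sl_of_type (hmk f) (hdt f)
  obtain ⟨w, hw⟩ := exists_sl_of_type (reg_adm (F := F) (n := n) (by omega)) hreg
  let ψ : Option A → ConjClasses (Matrix.SpecialLinearGroup (Fin n) F) := fun o => match o with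
    | none => ConjClasses.mk w
    | some f => ConjClasses.mk (v f)
  have hts : ∀ f : A, tS (ConjClasses.mk (v f)) = (nf f.1.1).map (fun P => (P, 1)) := fun f => typ_mk (Matrix.SpecialLinearGroup.toGL (v f)) (hv f)
  have hts' : tS (ConjClasses.mk w) = {((X - 1 : F[X]), n)} := typ_mk (Matrix.SpecialLinearGroup.toGL w) hw
  have hne : ∀ f : A, (nf f.1.1).map (fun P => (P, 1)) ≠ ({((X - 1 : F[X]), n)} : Multiset (F[X] × ℕ)) := by
    intro f h
    have h1 : ((X - 1 : F[X]), n) ∈ (nf f.1.1).map (fun P => (P, 1)) := by rw [h]; exact Multiset.mem_singleton_self _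
    rw [Multiset.mem_map] at h1
    obtain ⟨P, -, hP⟩ := h1
    have : 1 = n := congrArg Prod.snd hP
    omega
  have hψ : Function.Injective ψ := by
    intro a b hab
    rcases a with _ | f <;> rcases b with _ | g
    · rfl
    · exfalso
      have : tS (ConjClasses.mk w) = tS (ConjClasses.mk (v g)) := congrArg tS hab
      rw [hts, hts'] at this
      exact hne g this.symm
    · exfalso
      have : tS (ConjClasses.mk (v f)) = tS (ConjClasses.mk w) := congrArg tS hab
      rw [hts, hts'] at this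
      exact hne f this
    · have : tS (ConjClasses.mk (v f)) = tS (ConjClasses.mk (v g)) := congrArg tS hab
      rw [hts, hts] at this
      have h3 : nf f.1.1 = nf g.1.1 := Multiset.map_injective (fun a b hab => congrArg Prod.fst hab) this
      congr 1
      apply Subtype.ext
      apply Subtype.ext
      rw [← nf_prod f.1.2.1, h3, nf_prod g.1.2.1]
  have h1 := Nat.card_le_card_of_injective ψ hψ
  rw [Finite.card_option] at h1
  omega

end Cfsg.Agent.H15.RC
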