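import Mathlib
import Cfsg.Agent.H15_RK5
import Cfsg.Agent.H15_RC7

set_option autoImplicit false
set_option linter.all false
open Polynomial Module Matrix

namespace Cfsg.Agent.H15.RC

universe u
variable {F : Type u} [Field F]

/-- build a type from polynomials -/
noncomputable def bd (S : Finset ℕ) (h : ℕ → F[X]) : Multiset (F[X] × ℕ) := ∑ e ∈ S, (nf (h e)).map (fun P => (P, e))

structure GoodH (S : Finset ℕ) (h : ℕ → F[X]) : Prop where
  pos : ∀ e ∈ S, 1 ≤ e
  mon : ∀ e ∈ S, (h e).Monic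
  deg : ∀ e ∈ S, 1 ≤ (h e).natDegree
  c0 : ∀ e ∈ S, (h e).coeff 0 ≠ 0

theorem bd_erase {S : Finset ℕ} {h : ℕ → F[X]} {e : ℕ} (he : e ∈ S) : bd S h = (nf (h e)).map (fun P => (P, e)) + bd (S.erase e) h := by
  unfold bd
  exact (Finset.add_sum_erase S _ he).symm

theorem mem_bd {S : Finset ℕ} {h : ℕ → F[X]} {t : F[X] × ℕ} : t ∈ bd S h ↔ ∃ e ∈ S, ∃ P ∈ nf (h e), (P, e) = t := by
  unfold bd
  rw [Multiset.mem_sum]
  simp only [Multiset.mem_map]

theorem size_bd {S : Finset ℕ} {h : ℕ → F[X]} (hg : GoodH S h) : size (bd S h) = ∑ e ∈ S, e * (h e).natDegree := by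
  classical
  induction S using Finset.induction_on with
  | empty => rfl
  | insert a S ha ih =>
    have h1 : bd (insert a S) h = (nf (h a)).map (fun P => (P, a)) + bd S h := by
      unfold bd; rw [Finset.sum_insert ha]
    rw [h1, size_add, size_map_nf (hg.mon a (Finset.mem_insert_self _ _)), Finset.sum_insert ha, ih]
    exact ⟨fun e he => hg.pos e (Finset.mem_insert_of_mem he), fun e he => hg.mon e (Finset.mem_insert_of_mem he),
      fun e he => hg.deg e (Finset.mem_insert_of_mem he), fun e he => hg.c0 e (Finset.mem_insert_of_mem he)⟩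

theorem dt_bd {S : Finset ℕ} {h : ℕ → F[X]} (hg : GoodH S h) : dt (bd S h) = ∏ e ∈ S, sg (h e) ^ e := by
  classical
  induction S using Finset.induction_on with
  | empty => rfl
  | insert a S ha ih =>
    have h1 : bd (insert a S) h = (nf (h a)).map (fun P => (P, a)) + bd S h := by
      unfold bd; rw [Finset.sum_insert ha]
    have hm := hg.mon a (Finset.mem_insert_self _ _)
    rw [h1, dt_add, dt_map _ (fun P hP => (nf_mem hm hP).2.1), nf_prod hm, Finset.prod_insert ha, ih]
    exact ⟨fun e he => hg.pos e (Finset.mem_insert_of_mem he), fun e he => hg.mon e (Finset.mem_insert_of_mem he),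
      fun e he => hg.deg e (Finset.mem_insert_of_mem he), fun e he => hg.c0 e (Finset.mem_insert_of_mem he)⟩

theorem adm_bd {S : Finset ℕ} {h : ℕ → F[X]} (hg : GoodH S h) : Adm (∑ e ∈ S, e * (h e).natDegree) (bd S h) := by
  refine ⟨?_, size_bd hg, ?_⟩
  · intro t ht
    obtain ⟨e, he, P, hP, rfl⟩ := mem_bd.1 ht
    exact ⟨(nf_mem (hg.mon e he) hP).1, (nf_mem (hg.mon e he) hP).2.1, hg.pos e he⟩
  · intro t ht
    obtain ⟨e, he, P, hP, rfl⟩ := mem_bd.1 ht
    exact (X_dvd_iff_mem (hg.mon e he)).1 (hg.c0 e he) P hP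

theorem nf_ne_zero {f : F[X]} (hf : f.Monic) (hd : 1 ≤ f.natDegree) : nf f ≠ 0 := by
  intro h
  have := nf_prod hf
  rw [h, Multiset.prod_zero] at this
  rw [← this, natDegree_one] at hd
  omega

theorem ex_bd {S : Finset ℕ} {h : ℕ → F[X]} (hg : GoodH S h) : ex (bd S h) = S := by
  ext e
  rw [mem_ex]
  constructor
  · rintro ⟨t, ht, rfl⟩
    obtain ⟨e, he, P, hP, rfl⟩ := mem_bd.1 ht
    exact he
  · intro he
    obtain ⟨P, hP⟩ := Multiset.exists_mem_of_ne_zero (nf_ne_zero (hg.mon e he) (hg.deg e he))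
    exact ⟨(P, e), mem_bd.2 ⟨e, he, P, hP, rfl⟩, rfl⟩

open Classical in
theorem filt_not {S : Finset ℕ} {h : ℕ → F[X]} {e : ℕ} (he : e ∉ S) : (bd S h).filter (fun t => t.2 = e) = 0 := by
  rw [Multiset.filter_eq_nil]
  rintro t ht rfl
  obtain ⟨e', he', P, hP, rfl⟩ := mem_bd.1 ht
  exact he he'

open Classical in
theorem filt_mem {S : Finset ℕ} {h : ℕ → F[X]} {e : ℕ} (he : e ∈ S) : (bd S h).filter (fun t => t.2 = e) = (nf (h e)).map (fun P => (P, e)) := by
  rw [bd_erase he, Multiset.filter_add, filt_not (Finset.notMem_erase e S), add_zero, Multiset.filter_eq_self]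
  intro t ht
  rw [Multiset.mem_map] at ht
  obtain ⟨P, -, rfl⟩ := ht
  rfl

theorem fe_bd {S : Finset ℕ} {h : ℕ → F[X]} (hg : GoodH S h) {e : ℕ} (he : e ∈ S) : fe (bd S h) e = h e := by
  classical
  unfold fe
  rw [filt_mem he, Multiset.map_map]
  have : (Prod.fst ∘ fun P : F[X] => (P, e)) = id := rfl
  rw [this, Multiset.map_id, nf_prod (hg.mon e he)]

theorem good_fe {n : ℕ} {T : Multiset (F[X] × ℕ)} (hT : Adm n T) : GoodH (ex T) (fe T) := by
  refine ⟨?_, fun e _ => fe_monic hT e, fun e he => fe_deg hT he, fun e _ => fe_coeff0 hT e⟩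
  intro e he
  obtain ⟨t, ht, rfl⟩ := mem_ex.1 he
  exact (hT.1 t ht).2.2

theorem bd_fe {n : ℕ} {T : Multiset (F[X] × ℕ)} (hT : Adm n T) : bd (ex T) (fe T) = T := by
  classical
  have h1 : ∀ e, (bd (ex T) (fe T)).filter (fun t => t.2 = e) = T.filter (fun t => t.2 = e) := by
    intro e
    by_cases he : e ∈ ex T
    · rw [filt_mem he, nf_fe hT]
    · rw [filt_not he, eq_comm, Multiset.filter_eq_nil]
      rintro t ht rfl
      exact he (mem_ex.2 ⟨t, ht, rfl⟩)
  ext t
  have h2 : ∀ Y : Multiset (F[X] × ℕ), Multiset.count t Y = Multiset.count t (Y.filter (fun s => s.2 = t.2)) := by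
    intro Y
    rw [Multiset.count_filter_of_pos (p := fun s : F[X] × ℕ => s.2 = t.2) rfl]
  rw [h2, h1, ← h2]

/-! ### scale-invariant polynomials -/

theorem scale_prod (c : F) (S : Multiset F[X]) : S.prod.scaleRoots c = (S.map (fun P => P.scaleRoots c)).prod := by
  induction S using Multiset.induction_on with
  | empty => simp
  | cons P S ih => rw [Multiset.prod_cons, Multiset.map_cons, Multiset.prod_cons, Polynomial.mul_scaleRoots_of_noZeroDivisors, ih]

theorem fe_scale (c : Fˣ) (T : Multiset (F[X] × ℕ)) (e : ℕ) : fe (scaleT c T) e = (fe T e).scaleRoots (c : F) := by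
  classical
  unfold fe scaleT
  rw [scale_prod, Multiset.filter_map, Multiset.map_map, Multiset.map_map]
  rfl

theorem inv_coeff {f : F[X]} {c : Fˣ} {m : ℕ} (hm : orderOf c = m) (hf : f.scaleRoots (c : F) = f) (h0 : f.coeff 0 ≠ 0) : m ∣ f.natDegree ∧ ∀ i, f.coeff i ≠ 0 → m ∣ i := by
  have key : ∀ i, i ≤ f.natDegree → f.coeff i ≠ 0 → m ∣ f.natDegree - i := by
    intro i hi h
    have h1 := congrArg (fun g => coeff g i) hf
    simp only [coeff_scaleRoots] at h1
    have h2 : (c : F) ^ (f.natDegree - i) = 1 := mul_left_cancel₀ h (by rw [h1, mul_one])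
    rw [← hm, orderOf_dvd_iff_pow_eq_one]
    exact Units.ext (by rw [Units.val_pow_eq_pow_val, h2, Units.val_one])
  have h1 := key 0 (Nat.zero_le _) h0
  rw [Nat.sub_zero] at h1
  refine ⟨h1, fun i h => ?_⟩
  have hi := le_natDegree_of_ne_zero h
  have h2 := key i hi h
  have h3 := Nat.dvd_sub h1 h2
  rwa [Nat.sub_sub_self hi] at h3

theorem expand_contract_of {f : F[X]} {m : ℕ} (hm : 1 ≤ m) (h : ∀ i, f.coeff i ≠ 0 → m ∣ i) : expand F m (contract m f) = f := by
  ext i
  rw [coeff_expand hm]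
  split_ifs with hi
  · rw [coeff_contract (by omega), Nat.div_mul_cancel hi]
  · by_contra h1
    exact hi (h i (Ne.symm h1))

theorem contract_facts {f : F[X]} {m : ℕ} (hm : 1 ≤ m) (hf : f.Monic) (h0 : f.coeff 0 ≠ 0) (h : ∀ i, f.coeff i ≠ 0 → m ∣ i) :
    (contract m f).Monic ∧ m * (contract m f).natDegree = f.natDegree ∧ (contract m f).coeff 0 = f.coeff 0 := by
  have h1 := expand_contract_of hm h
  refine ⟨?_, ?_, ?_⟩
  · rw [← Polynomial.monic_expand_iff hm, h1]; exact hf
  · conv_rhs => rw [← h1]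
    rw [natDegree_expand, mul_comm]
  · rw [coeff_contract (by omega), zero_mul]

/-- the descended type -/
noncomputable def th (m : ℕ) (T : Multiset (F[X] × ℕ)) : Multiset (F[X] × ℕ) := bd (ex T) (fun e => contract m (fe T e))

section th
variable {n m : ℕ} {T : Multiset (F[X] × ℕ)} {c : Fˣ} (hc : orderOf c = m) (hm : 1 ≤ m) (hT : Adm n T) (hs : scaleT c T = T)

include hc hT hs in
theorem fe_inv (e : ℕ) : m ∣ (fe T e).natDegree ∧ ∀ i, (fe T e).coeff i ≠ 0 → m ∣ i := by
  apply inv_coeff hc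
  · rw [← fe_scale, hs]
  · exact fe_coeff0 hT e

include hc hm hT hs in
theorem th_facts (e : ℕ) : (contract m (fe T e)).Monic ∧ m * (contract m (fe T e)).natDegree = (fe T e).natDegree ∧ (contract m (fe T e)).coeff 0 = (fe T e).coeff 0 :=
  contract_facts hm (fe_monic hT e) (fe_coeff0 hT e) (fe_inv hc hT hs e).2

include hc hm hT hs in
theorem th_good : GoodH (ex T) (fun e => contract m (fe T e)) := by
  refine ⟨(good_fe hT).pos, fun e _ => (th_facts hc hm hT hs e).1, fun e he => ?_, fun e _ => ?_⟩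
  · have h1 := (th_facts hc hm hT hs e).2.1
    have h2 := fe_deg hT he
    by_contra h3
    push Not at h3
    have : (contract m (fe T e)).natDegree = 0 := by omega
    rw [this, mul_zero] at h1
    omega
  · change (contract m (fe T e)).coeff 0 ≠ 0
    rw [(th_facts hc hm hT hs e).2.2]
    exact fe_coeff0 hT e

include hc hm hT hs in
theorem th_size : m * (∑ e ∈ ex T, e * (contract m (fe T e)).natDegree) = n := by
  rw [Finset.mul_sum]
  have h1 := size_bd (good_fe hT)
  rw [bd_fe hT, hT.2.1] at h1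
  rw [h1]
  apply Finset.sum_congr rfl
  intro e _
  rw [← (th_facts hc hm hT hs e).2.1]; ring

include hc hm hT hs in
theorem th_adm : Adm (n / m) (th m T) := by
  have h1 := adm_bd (th_good hc hm hT hs)
  have h2 := th_size hc hm hT hs
  have h3 : n / m = ∑ e ∈ ex T, e * (contract m (fe T e)).natDegree := by
    conv_lhs => rw [← h2]
    rw [Nat.mul_div_cancel_left _ hm]
  rw [h3]
  exact h1

include hc hm hT hs in
theorem th_ex : ex (th m T) = ex T := ex_bd (th_good hc hm hT hs)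

include hc hm hT hs in
theorem th_dt : dt T = (-1) ^ ((m - 1) * (n / m)) * dt (th m T) := by
  have h1 := dt_bd (good_fe hT)
  rw [bd_fe hT] at h1
  have h2 := dt_bd (th_good hc hm hT hs)
  have h3 : n / m = ∑ e ∈ ex T, e * (contract m (fe T e)).natDegree := by
    conv_lhs => rw [← th_size hc hm hT hs]
    rw [Nat.mul_div_cancel_left _ hm]
  unfold th
  rw [h1, h2, h3, Finset.mul_sum, ← Finset.prod_pow_eq_pow_sum, ← Finset.prod_mul_distrib]
  apply Finset.prod_congr rfl
  intro e _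
  obtain ⟨_, h4, h5⟩ := th_facts hc hm hT hs e
  unfold sg
  rw [h5, ← h4]
  obtain ⟨k, rfl⟩ := Nat.exists_eq_add_of_le hm
  have e1 : 1 + k - 1 = k := by omega
  rw [e1, mul_pow, mul_pow, ← mul_assoc, ← pow_mul, ← pow_mul, ← pow_add]
  congr 2
  ring

theorem th_inj {T' : Multiset (F[X] × ℕ)} (hc : orderOf c = m) (hm : 1 ≤ m) (hT : Adm n T) (hs : scaleT c T = T) (hT' : Adm n T') (hs' : scaleT c T' = T') (h : th m T = th m T') : T = T' := by
  have h1 : ex T = ex T' := by rw [← th_ex hc hm hT hs, h, th_ex hc hm hT' hs']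
  have h2 : ∀ e ∈ ex T, fe T e = fe T' e := by
    intro e he
    have h3 : fe (th m T) e = contract m (fe T e) := fe_bd (th_good hc hm hT hs) he
    have h4 : fe (th m T') e = contract m (fe T' e) := fe_bd (th_good hc hm hT' hs') (h1 ▸ he)
    rw [← expand_contract_of hm (fe_inv hc hT hs e).2, ← h3, h, h4, expand_contract_of hm (fe_inv hc hT' hs' e).2]
  rw [← bd_fe hT, ← bd_fe hT', ← h1]
  unfold bd
  apply Finset.sum_congr rfl
  intro e he
  rw [h2 e he]

end th

section bnd
variable [Fintype F]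

open Classical in
/-- weighted number of scale-invariant types -/
theorem fix_le {n m : ℕ} (hn : 1 ≤ n) (c : Fˣ) (hc : orderOf c = m) (hcn : c ^ n = 1) :
    (Fintype.card F - 1) * ∑ T ∈ (At F n).filter (fun T => dt T = 1 ∧ scaleT c T = T), wt T ≤ Gam F (n / m) := by
  have hm : 1 ≤ m := by rw [← hc]; exact orderOf_pos c
  have hmn : m ∣ n := by rw [← hc]; exact orderOf_dvd_of_pow_eq_one hcn
  have hn' : 1 ≤ n / m := Nat.div_pos (Nat.le_of_dvd hn hmn) hm
  refine le_trans (Nat.mul_le_mul_left _ ?_) (wt_le (n / m) hn' ((-1) ^ ((m - 1) * (n / m))))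
  have h1 : ∑ T ∈ (At F n).filter (fun T => dt T = 1 ∧ scaleT c T = T), wt T = ∑ T ∈ ((At F n).filter (fun T => dt T = 1 ∧ scaleT c T = T)).image (th m), wt T := by
    rw [Finset.sum_image]
    · apply Finset.sum_congr rfl
      intro T hT
      rw [Finset.mem_filter, mem_At] at hT
      unfold wt
      rw [th_ex hc hm hT.1 hT.2.2]
    · intro T hT T' hT' h
      rw [Finset.mem_coe, Finset.mem_filter, mem_At] at hT hT'
      exact th_inj hc hm hT.1 hT.2.2 hT'.1 hT'.2.2 h
  rw [h1]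
  apply Finset.sum_le_sum_of_subset
  intro T' hT'
  rw [Finset.mem_image] at hT'
  obtain ⟨T, hT, rfl⟩ := hT'
  rw [Finset.mem_filter, mem_At] at hT ⊢
  refine ⟨th_adm hc hm hT.1 hT.2.2, ?_⟩
  have h2 := th_dt hc hm hT.1 hT.2.2
  rw [hT.2.1] at h2
  have h3 : ((-1 : F) ^ ((m - 1) * (n / m))) * (-1) ^ ((m - 1) * (n / m)) = 1 := by
    rw [← mul_pow]; simp
  push_cast
  calc dt (th m T) = (((-1 : F) ^ ((m - 1) * (n / m))) * (-1) ^ ((m - 1) * (n / m))) * dt (th m T) := by rw [h3, one_mul]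
    _ = (-1) ^ ((m - 1) * (n / m)) * (((-1) ^ ((m - 1) * (n / m))) * dt (th m T)) := by ring
    _ = _ := by rw [← h2, mul_one]

end bnd

end Cfsg.Agent.H15.RC
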