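import Mathlib
import Cfsg.Agent.H15_RK6

set_option autoImplicit false
set_option linter.all false
open Polynomial Module Matrix

namespace Cfsg.Agent.H15.RC

section grp
variable {G : Type*} [Group G]

/-- multiplication of classes by central elements -/
def zsm (z : Subgroup.center G) : ConjClasses G → ConjClasses G :=
  Quotient.map (fun g => (z : G) * g) (by
    intro g h hgh
    obtain ⟨c, hc⟩ := isConj_iff.1 hgh
    refine isConj_iff.2 ⟨c, ?_⟩
    rw [← hc, ← mul_assoc, Subgroup.mem_center_iff.1 z.2 c]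
    group)

theorem zsm_mk (z : Subgroup.center G) (g : G) : zsm z (ConjClasses.mk g) = ConjClasses.mk ((z : G) * g) := rfl

instance zact : MulAction (Subgroup.center G) (ConjClasses G) where
  smul := zsm
  one_smul C := by
    obtain ⟨g, rfl⟩ := ConjClasses.mk_surjective C
    change zsm 1 (ConjClasses.mk g) = _
    rw [zsm_mk]; simp
  mul_smul a b C := by
    obtain ⟨g, rfl⟩ := ConjClasses.mk_surjective C
    change zsm (a * b) (ConjClasses.mk g) = zsm a (zsm b (ConjClasses.mk g))
    rw [zsm_mk, zsm_mk, zsm_mk, Subgroup.coe_mul, mul_assoc]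

theorem zsmul_mk (z : Subgroup.center G) (g : G) : z • ConjClasses.mk g = ConjClasses.mk ((z : G) * g) := rfl

theorem card_quot_classes [Finite G] : Nat.card (Subgroup.center G) * Nat.card (ConjClasses (G ⧸ Subgroup.center G)) = ∑ᶠ z : Subgroup.center G, Nat.card {C : ConjClasses G // z • C = C} := by
  classical
  haveI := Fintype.ofFinite (Subgroup.center G)
  haveI := Fintype.ofFinite (ConjClasses G)
  haveI := Fintype.ofFinite (MulAction.orbitRel.Quotient (Subgroup.center G) (ConjClasses G))
  rw [finsum_eq_sum_of_fintype]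
  have h := MulAction.sum_card_fixedBy_eq_card_orbits_mul_card_group (Subgroup.center G) (ConjClasses G)
  have e1 : ∀ z : Subgroup.center G, Nat.card {C : ConjClasses G // z • C = C} = Fintype.card (MulAction.fixedBy (ConjClasses G) z) := by
    intro z
    rw [← Nat.card_eq_fintype_card]
    rfl
  rw [Finset.sum_congr rfl (fun z _ => e1 z), h, mul_comm, ← Nat.card_eq_fintype_card, ← Nat.card_eq_fintype_card]
  congr 1
  apply Nat.card_congr
  symm
  let f : ConjClasses G → ConjClasses (G ⧸ Subgroup.center G) := ConjClasses.map (QuotientGroup.mk' (Subgroup.center G))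
  have hf : ∀ C D, f C = f D ↔ (MulAction.orbitRel (Subgroup.center G) (ConjClasses G)).r C D := by
    intro C D
    obtain ⟨g, rfl⟩ := ConjClasses.mk_surjective C
    obtain ⟨h, rfl⟩ := ConjClasses.mk_surjective D
    constructor
    · intro hfg
      have h1 : IsConj (QuotientGroup.mk g : G ⧸ Subgroup.center G) (QuotientGroup.mk h) := ConjClasses.mk_eq_mk_iff_isConj.1 hfg
      obtain ⟨x, hx⟩ := isConj_iff.1 h1
      obtain ⟨y, rfl⟩ := QuotientGroup.mk_surjective x
      have h2 : ((y * g * y⁻¹ : G) : G ⧸ Subgroup.center G) = (h : G ⧸ Subgroup.center G) := hx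
      rw [eq_comm, QuotientGroup.eq] at h2
      refine ⟨⟨h⁻¹ * (y * g * y⁻¹), h2⟩, ?_⟩
      change (⟨h⁻¹ * (y * g * y⁻¹), h2⟩ : Subgroup.center G) • ConjClasses.mk h = ConjClasses.mk g
      rw [zsmul_mk, ConjClasses.mk_eq_mk_iff_isConj, isConj_comm, isConj_iff]
      refine ⟨y, ?_⟩
      change y * g * y⁻¹ = h⁻¹ * (y * g * y⁻¹) * h
      rw [← Subgroup.mem_center_iff.1 h2 h]
      group
    · rintro ⟨z, hz⟩
      have h1 : ConjClasses.mk ((z : G) * h) = ConjClasses.mk g := hz
      rw [← h1]
      change ConjClasses.mk (QuotientGroup.mk ((z : G) * h) : G ⧸ Subgroup.center G) = ConjClasses.mk (QuotientGroup.mk h)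
      congr 1
      rw [QuotientGroup.mk_mul, (QuotientGroup.eq_one_iff (z : G)).2 z.2, one_mul]
  refine Equiv.ofBijective (Quotient.lift f (fun a b h => (hf a b).2 h)) ⟨?_, ?_⟩
  · intro a b
    refine Quotient.inductionOn₂ a b (fun a b h => Quotient.sound ((hf a b).1 h))
  · intro C
    obtain ⟨x, rfl⟩ := ConjClasses.mk_surjective C
    obtain ⟨g, rfl⟩ := QuotientGroup.mk_surjective x
    exact ⟨Quotient.mk _ (ConjClasses.mk g), rfl⟩

end grp

universe u
section
variable {F : Type u} [Field F] [Fintype F] {n : ℕ}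

theorem center_sl (hn : 1 ≤ n) (z : Subgroup.center (Matrix.SpecialLinearGroup (Fin n) F)) :
    ∃ c : Fˣ, c ^ n = 1 ∧ ((z : Matrix.SpecialLinearGroup (Fin n) F) : Matrix (Fin n) (Fin n) F) = (c : F) • 1 := by
  obtain ⟨r, hr, hz⟩ := Matrix.SpecialLinearGroup.mem_center_iff.1 z.2
  rw [Fintype.card_fin] at hr
  have hr0 : r ≠ 0 := by rintro rfl; rw [zero_pow (by omega)] at hr; exact zero_ne_one hr
  refine ⟨Units.mk0 r hr0, Units.ext hr, ?_⟩
  rw [← hz]
  ext i j
  simp [Matrix.scalar_apply, Matrix.diagonal_apply, Matrix.one_apply]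

theorem tS_smul (hn : 1 ≤ n) (z : Subgroup.center (Matrix.SpecialLinearGroup (Fin n) F)) {c : Fˣ}
    (hz : ((z : Matrix.SpecialLinearGroup (Fin n) F) : Matrix (Fin n) (Fin n) F) = (c : F) • 1) (C : ConjClasses (Matrix.SpecialLinearGroup (Fin n) F)) :
    tS (z • C) = scaleT c (tS C) := by
  obtain ⟨v, rfl⟩ := ConjClasses.mk_surjective C
  rw [zsmul_mk]
  have h1 := MT_scale (tS_mk v) c
  have h2 := tS_mk ((z : Matrix.SpecialLinearGroup (Fin n) F) * v)
  have h3 : (((z : Matrix.SpecialLinearGroup (Fin n) F) * v : Matrix.SpecialLinearGroup (Fin n) F) : Matrix (Fin n) (Fin n) F) = (c : F) • (v : Matrix (Fin n) (Fin n) F) := by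
    rw [Matrix.SpecialLinearGroup.coe_mul, hz, Matrix.smul_mul, Matrix.one_mul]
  rw [h3] at h2
  exact type_unique h2 h1 (LinearEquiv.refl F _) (fun v => rfl)

theorem fixed_le (hn : 1 ≤ n) (z : Subgroup.center (Matrix.SpecialLinearGroup (Fin n) F)) {c : Fˣ} {m : ℕ} (hm : orderOf c = m) (hcn : c ^ n = 1)
    (hz : ((z : Matrix.SpecialLinearGroup (Fin n) F) : Matrix (Fin n) (Fin n) F) = (c : F) • 1) :
    (Fintype.card F - 1) * Nat.card {C : ConjClasses (Matrix.SpecialLinearGroup (Fin n) F) // z • C = C} ≤ Gam F (n / m) := by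
  classical
  refine le_trans (Nat.mul_le_mul_left _ ?_) (fix_le hn c hm hcn)
  haveI := Fintype.ofFinite (ConjClasses (Matrix.SpecialLinearGroup (Fin n) F))
  rw [Nat.card_eq_fintype_card, Fintype.card_subtype, Finset.card_eq_sum_card_fiberwise (f := fun C => tS C) (t := (At F n).filter (fun T => dt T = 1 ∧ scaleT c T = T))]
  · apply Finset.sum_le_sum
    intro T hT
    rw [Finset.mem_filter, mem_At] at hT
    have := fiber_le hn hT.1 hT.2.1
    rw [Nat.card_eq_fintype_card, Fintype.card_subtype] at this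
    refine le_trans (Finset.card_le_card ?_) this
    intro C hC
    rw [Finset.mem_filter] at hC
    rw [Finset.mem_filter]
    exact ⟨Finset.mem_univ _, hC.2⟩
  · intro C hC
    rw [Finset.mem_coe, Finset.mem_filter] at hC
    rw [Finset.mem_coe, Finset.mem_filter, mem_At]
    refine ⟨tS_adm C, tS_dt C, ?_⟩
    rw [← tS_smul hn z hz, hC.2]

theorem card_center (hn : 1 ≤ n) : Nat.card (Subgroup.center (Matrix.SpecialLinearGroup (Fin n) F)) = Nat.gcd n (Fintype.card F - 1) := by
  classical
  rw [Nat.card_congr (Matrix.SpecialLinearGroup.center_equiv_rootsOfUnity (n := Fin n) (R := F)).toEquiv, Fintype.card_fin, max_eq_left hn]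
  have h1 : (powMonoidHom n : Fˣ →* Fˣ).range.index = (Nat.card Fˣ).gcd n := IsCyclic.index_powMonoidHom_range (G := Fˣ) n
  have h2 := (powMonoidHom n : Fˣ →* Fˣ).range.card_mul_index
  have h3 := (powMonoidHom n : Fˣ →* Fˣ).ker.card_mul_index
  rw [Subgroup.index_ker] at h3
  rw [h1] at h2
  have h4 : Nat.card (powMonoidHom n : Fˣ →* Fˣ).ker = (Nat.card Fˣ).gcd n := by
    have h5 : 0 < Nat.card (powMonoidHom n : Fˣ →* Fˣ).range := Nat.card_pos
    have h6 : Nat.card (powMonoidHom n : Fˣ →* Fˣ).range * Nat.card (powMonoidHom n : Fˣ →* Fˣ).ker = Nat.card (powMonoidHom n : Fˣ →* Fˣ).range * (Nat.card Fˣ).gcd n := by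
      rw [h2, mul_comm]; exact h3
    exact Nat.eq_of_mul_eq_mul_left h5 h6
  have h7 : Nat.card (rootsOfUnity n F) = Nat.card (powMonoidHom n : Fˣ →* Fˣ).ker := rfl
  rw [h7, h4, Nat.card_eq_fintype_card, Fintype.card_units, Nat.gcd_comm]

theorem main_psl (hn : 2 ≤ n) :
    Fintype.card F ^ (n - 1) ≤ Nat.gcd n (Fintype.card F - 1) * Nat.card (ConjClasses (Matrix.ProjectiveSpecialLinearGroup (Fin n) F)) ∧
      Nat.gcd n (Fintype.card F - 1) * Nat.card (ConjClasses (Matrix.ProjectiveSpecialLinearGroup (Fin n) F)) ≤ Fintype.card F ^ (n - 1) + 5 * Fintype.card F ^ (n - 2) := by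
  classical
  have hq := q_ge (F := F)
  haveI := Fintype.ofFinite (Subgroup.center (Matrix.SpecialLinearGroup (Fin n) F))
  have h0 := card_quot_classes (G := Matrix.SpecialLinearGroup (Fin n) F)
  rw [card_center (by omega), finsum_eq_sum_of_fintype] at h0
  have hP : Nat.card (ConjClasses (Matrix.ProjectiveSpecialLinearGroup (Fin n) F)) = Nat.card (ConjClasses (Matrix.SpecialLinearGroup (Fin n) F ⧸ Subgroup.center (Matrix.SpecialLinearGroup (Fin n) F))) := rfl
  rw [hP, h0]
  have h1 : Nat.card {C : ConjClasses (Matrix.SpecialLinearGroup (Fin n) F) // (1 : Subgroup.center (Matrix.SpecialLinearGroup (Fin n) F)) • C = C} = Nat.card (ConjClasses (Matrix.SpecialLinearGroup (Fin n) F)) :=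
    Nat.card_congr (Equiv.subtypeUnivEquiv (fun C => one_smul _ C))
  rw [← Finset.add_sum_erase Finset.univ _ (Finset.mem_univ (1 : Subgroup.center (Matrix.SpecialLinearGroup (Fin n) F))), h1]
  have hlow := sl_lower (F := F) hn
  have hup := main_bound (F := F) (n := n) (by omega)
  refine ⟨by omega, ?_⟩
  -- bound for nontrivial z
  have hB : ∀ B : ℕ, (∀ m x, 2 ≤ m → m ∣ n → (Fintype.card F - 1) * x ≤ Gam F (n / m) → x ≤ B) →
      ∑ z ∈ Finset.univ.erase (1 : Subgroup.center (Matrix.SpecialLinearGroup (Fin n) F)), Nat.card {C : ConjClasses (Matrix.SpecialLinearGroup (Fin n) F) // z • C = C} ≤ (Nat.gcd n (Fintype.card F - 1) - 1) * B := by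
    intro B hB
    have h2 : (Finset.univ.erase (1 : Subgroup.center (Matrix.SpecialLinearGroup (Fin n) F))).card = Nat.gcd n (Fintype.card F - 1) - 1 := by
      rw [Finset.card_erase_of_mem (Finset.mem_univ _), Finset.card_univ, ← Nat.card_eq_fintype_card, card_center (by omega)]
    rw [← h2, ← smul_eq_mul, ← Finset.sum_const]
    apply Finset.sum_le_sum
    intro z hz
    obtain ⟨c, hc1, hc2⟩ := center_sl (by omega) z
    refine hB (orderOf c) _ ?_ (orderOf_dvd_of_pow_eq_one hc1) (fixed_le (by omega) z rfl hc1 hc2)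
    have h3 : 0 < orderOf c := orderOf_pos c
    have h4 : orderOf c ≠ 1 := by
      intro h
      rw [orderOf_eq_one_iff] at h
      subst h
      rw [Finset.mem_erase] at hz
      apply hz.1
      apply Subtype.ext
      apply Subtype.ext
      rw [hc2]; simp
    omega
  have hd : Nat.gcd n (Fintype.card F - 1) - 1 ≤ Fintype.card F - 2 := by
    have : Nat.gcd n (Fintype.card F - 1) ≤ Fintype.card F - 1 := Nat.le_of_dvd (by omega) (Nat.gcd_dvd_right _ _)
    omega
  have hd2 : Nat.gcd n (Fintype.card F - 1) - 1 ≤ n - 1 := by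
    have : Nat.gcd n (Fintype.card F - 1) ≤ n := Nat.le_of_dvd (by omega) (Nat.gcd_dvd_left _ _)
    omega
  generalize Nat.card (ConjClasses (Matrix.SpecialLinearGroup (Fin n) F)) = x at hup ⊢
  generalize ∑ z ∈ Finset.univ.erase (1 : Subgroup.center (Matrix.SpecialLinearGroup (Fin n) F)), Nat.card {C : ConjClasses (Matrix.SpecialLinearGroup (Fin n) F) // z • C = C} = y at hB ⊢
  clear h0 hP h1 hlow
  rcases Nat.lt_or_ge n 5 with h5 | h5
  · interval_cases n
    · -- n = 2
      have h6 := hB 1 (by
        intro m x hm hmn hx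
        have : m = 2 := le_antisymm (Nat.le_of_dvd (by norm_num) hmn) hm
        subst this
        exact bound_one (F := F) hx)
      have h7 : x ≤ Fintype.card F + 4 := by
        rcases bound_two (F := F) hup with h | ⟨_, h⟩
        · omega
        · exact h
      norm_num
      omega
    · -- n = 3
      have h6 := hB 1 (by
        intro m x hm hmn hx
        have : m = 3 := by
          rcases (Nat.dvd_prime Nat.prime_three).1 hmn with h | h
          · omega
          · exact h
        subst this
        exact bound_one (F := F) hx)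
      have h7 := bound_three (F := F) (n := 3) le_rfl hup
      norm_num at h7 ⊢
      omega
    · -- n = 4
      have h6 := hB (Fintype.card F + 4) (by
        intro m x hm hmn hx
        have : m ∈ Nat.divisors 4 := Nat.mem_divisors.2 ⟨hmn, by norm_num⟩
        have e0 : Nat.divisors 4 = {1, 2, 4} := by decide
        rw [e0] at this
        simp only [Finset.mem_insert, Finset.mem_singleton] at this
        rcases this with h | h | h
        · omega
        · subst h
          rcases bound_two (F := F) hx with h | ⟨_, h⟩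
          · omega
          · exact h
        · subst h
          have := bound_one (F := F) hx
          omega)
      have h7 := bound_three (F := F) (n := 4) (by norm_num) hup
      have h8 : (Nat.gcd 4 (Fintype.card F - 1) - 1) * (Fintype.card F + 4) ≤ 2 * Fintype.card F ^ 2 := by
        refine (Nat.mul_le_mul_right _ hd).trans ?_
        obtain ⟨m, hm⟩ := Nat.exists_eq_add_of_le hq
        rw [hm]
        have : 2 + m - 2 = m := by omega
        rw [this]
        nlinarith
      norm_num at h7 ⊢
      omega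
  · have h7 := bound_three (F := F) (n := n) (by omega) hup
    have h6 := hB (3 * Fintype.card F ^ (n / 2 - 1)) (by
      intro m x hm hmn hx
      have h8 : 1 ≤ n / m := Nat.div_pos (Nat.le_of_dvd (by omega) hmn) (by omega)
      have h9 := bound_all (F := F) h8 hx
      have h10 : Fintype.card F ^ (n / m - 1) ≤ Fintype.card F ^ (n / 2 - 1) := by
        apply Nat.pow_le_pow_right (by omega)
        have : n / m ≤ n / 2 := Nat.div_le_div_left hm (by norm_num)
        omega
      omega)
    have h8 : (Nat.gcd n (Fintype.card F - 1) - 1) * (3 * Fintype.card F ^ (n / 2 - 1)) ≤ 2 * Fintype.card F ^ (n - 2) := by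
      refine (Nat.mul_le_mul_right _ hd).trans ?_
      have h9 : (Fintype.card F - 2) * (3 * Fintype.card F ^ (n / 2 - 1)) ≤ 3 * Fintype.card F ^ (n - 3) := by
        have h10 : (Fintype.card F - 2) * Fintype.card F ^ (n / 2 - 1) ≤ Fintype.card F ^ (n - 3) := by
          calc (Fintype.card F - 2) * Fintype.card F ^ (n / 2 - 1) ≤ Fintype.card F * Fintype.card F ^ (n / 2 - 1) := Nat.mul_le_mul_right _ (by omega)
            _ = Fintype.card F ^ (n / 2 - 1 + 1) := by rw [pow_succ']
            _ ≤ Fintype.card F ^ (n - 3) := Nat.pow_le_pow_right (by omega) (by omega)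
        calc (Fintype.card F - 2) * (3 * Fintype.card F ^ (n / 2 - 1)) = 3 * ((Fintype.card F - 2) * Fintype.card F ^ (n / 2 - 1)) := by ring
          _ ≤ _ := Nat.mul_le_mul_left _ h10
      have h11 : Fintype.card F ^ (n - 2) = Fintype.card F * Fintype.card F ^ (n - 3) := by rw [← pow_succ']; congr 1; omega
      rw [h11]
      have h12 : 2 * Fintype.card F ^ (n - 3) ≤ Fintype.card F * Fintype.card F ^ (n - 3) := Nat.mul_le_mul_right _ hq
      omega
    omega

end

end Cfsg.Agent.H15.RC
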