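import Mathlib
import Cfsg.Agent.H15_FM3

set_option autoImplicit false
open Module Polynomial

namespace Cfsg.Agent.H15.FM

open Cfsg.Agent.H15.SS

variable {F : Type*} [Field F] {σ : F →+* F} {ε : F}

/-- extension by the identity -/
theorem ext_id {V : Type*} [AddCommGroup V] [Module F V] [Module.Finite F V] (g : Module.End F V) {p q : Submodule F V} (hpq : IsCompl p q)
    (hp : ∀ x ∈ p, g x ∈ p) (hq : ∀ x ∈ q, g x ∈ q) (D1 : Module.End F p) (hD : ∀ x : p, D1 (g.restrict hp x) = g.restrict hp (D1 x)) :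
    ∃ D : Module.End F V, D * g = g * D ∧ LinearMap.det D = LinearMap.det D1 ∧ (∀ a : p, D a = D1 a) ∧ (∀ b ∈ q, D b = b) := by
  let D : Module.End F V := (Submodule.prodEquivOfIsCompl _ _ hpq).conj (D1.prodMap LinearMap.id)
  have h1 : ∀ (a : p) (b : q), D ((Submodule.prodEquivOfIsCompl _ _ hpq) (a, b)) = (Submodule.prodEquivOfIsCompl _ _ hpq) (D1 a, b) := by
    intro a b
    change (Submodule.prodEquivOfIsCompl _ _ hpq) ((D1.prodMap LinearMap.id) ((Submodule.prodEquivOfIsCompl _ _ hpq).symm _)) = _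
    rw [LinearEquiv.symm_apply_apply]
    rfl
  have h2 : ∀ (a : p) (b : q), g ((Submodule.prodEquivOfIsCompl _ _ hpq) (a, b)) = (Submodule.prodEquivOfIsCompl _ _ hpq) (g.restrict hp a, g.restrict hq b) := by
    intro a b
    rw [Submodule.coe_prodEquivOfIsCompl', Submodule.coe_prodEquivOfIsCompl', map_add, LinearMap.restrict_coe_apply, LinearMap.restrict_coe_apply]
  refine ⟨D, ?_, ?_, ?_, ?_⟩
  · apply LinearMap.ext
    intro y
    obtain ⟨⟨a, b⟩, rfl⟩ := (Submodule.prodEquivOfIsCompl _ _ hpq).surjective y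
    rw [Module.End.mul_apply, Module.End.mul_apply, h1, h2, h2, h1, hD]
  · have h3 : LinearMap.det D = LinearMap.det (D1.prodMap (LinearMap.id : q →ₗ[F] q)) :=
      LinearMap.det_conj (D1.prodMap (LinearMap.id : q →ₗ[F] q)) (Submodule.prodEquivOfIsCompl _ _ hpq)
    rw [h3, LinearMap.det_prodMap, LinearMap.det_id, mul_one]
  · intro a
    have := h1 a 0
    rwa [Submodule.coe_prodEquivOfIsCompl', Submodule.coe_prodEquivOfIsCompl', Submodule.coe_zero, add_zero, add_zero] at this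
  · intro b hb
    have := h1 0 ⟨b, hb⟩
    rwa [map_zero, Submodule.coe_prodEquivOfIsCompl', Submodule.coe_zero, zero_add] at this

/-- multiplication by a polynomial on a cyclic module, extended by the identity -/
theorem ext_cyc {V : Type*} [AddCommGroup V] [Module F V] [Module.Finite F V] (g : Module.End F V) {f : F[X]} (hf : Irreducible f) {v : V} (hv : v ≠ 0) (hfv : aeval g f v = 0)
    {q : Submodule F V} (hpq : IsCompl (LinearMap.range (ev g v)) q) (hq : ∀ x ∈ q, g x ∈ q) (c : F[X]) :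
    ∃ D : Module.End F V, D * g = g * D ∧ LinearMap.det D = Algebra.norm F (AdjoinRoot.mk f c) ∧ (∀ a ∈ LinearMap.range (ev g v), D a = aeval g c a) ∧ (∀ b ∈ q, D b = b) := by
  haveI : Fact (Irreducible f) := ⟨hf⟩
  haveI : Module.Finite F (AdjoinRoot f) := (AdjoinRoot.powerBasis hf.ne_zero).finite
  let D1 : Module.End F (LinearMap.range (ev g v)) := (cyc hf hv hfv).conj (Algebra.lmul F (AdjoinRoot f) (AdjoinRoot.mk f c))
  have hD1 : ∀ a : LinearMap.range (ev g v), (D1 a : V) = aeval g c a := by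
    intro a
    obtain ⟨x, rfl⟩ := (cyc hf hv hfv).surjective a
    obtain ⟨p, rfl⟩ := AdjoinRoot.mk_surjective x
    change ((cyc hf hv hfv) (AdjoinRoot.mk f c * ((cyc hf hv hfv).symm ((cyc hf hv hfv) (AdjoinRoot.mk f p)))) : V) = _
    rw [LinearEquiv.symm_apply_apply, ← map_mul, cyc_mk, cyc_mk, ev_apply, ev_apply, map_mul, Module.End.mul_apply]
  obtain ⟨D, h1, h2, h3, h4⟩ := ext_id g hpq (range_inv g v) hq D1 (by
    intro x
    apply Subtype.ext
    rw [hD1, LinearMap.restrict_coe_apply, LinearMap.restrict_coe_apply, hD1, ← Module.End.mul_apply]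
    have : aeval g c * g = g * aeval g c := by
      calc aeval g c * g = aeval g (c * X) := by rw [map_mul, aeval_X]
        _ = aeval g (X * c) := by rw [mul_comm]
        _ = g * aeval g c := by rw [map_mul, aeval_X]
    rw [this]; rfl)
  refine ⟨D, h1, ?_, ?_, h4⟩
  · rw [h2]
    have h5 : LinearMap.det D1 = LinearMap.det (Algebra.lmul F (AdjoinRoot f) (AdjoinRoot.mk f c)) :=
      LinearMap.det_conj (Algebra.lmul F (AdjoinRoot f) (AdjoinRoot.mk f c)) (cyc hf hv hfv)
    rw [h5, ← Algebra.norm_apply]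
  · intro a ha
    rw [h3 ⟨a, ha⟩, hD1]

/-- semilinear behaviour of the norm -/
theorem norm_semi {K K' : Type*} [Finite F] [Field K] [Field K'] [Algebra F K] [Algebra F K'] [Finite K] [Finite K'] (β : K →+* K')
    (hβ : ∀ a, β (algebraMap F K a) = algebraMap F K' (σ a)) (hc : Nat.card K = Nat.card K') (k : K) :
    Algebra.norm F (β k) = σ (Algebra.norm F k) := by
  apply (algebraMap F K').injective
  rw [← hβ, FiniteField.algebraMap_norm_eq_pow, FiniteField.algebraMap_norm_eq_pow, map_pow, hc]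

/-- the map of residue fields -/
noncomputable def beta (σ : F →+* F) (m : ℕ) {f f' : F[X]} (h : ∀ p, f ∣ p → f' ∣ bar σ m p) : AdjoinRoot f →+* AdjoinRoot f' :=
  Ideal.Quotient.lift (Ideal.span {f}) ((AdjoinRoot.mk f').comp (bar σ m)) (by
    intro a ha
    rw [Ideal.mem_span_singleton] at ha
    rw [RingHom.comp_apply, AdjoinRoot.mk_eq_zero]
    exact h a ha)

theorem beta_mk {m : ℕ} {f f' : F[X]} (h : ∀ p, f ∣ p → f' ∣ bar σ m p) (p : F[X]) : beta σ m h (AdjoinRoot.mk f p) = AdjoinRoot.mk f' (bar σ m p) := rfl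

theorem beta_alg {m : ℕ} {f f' : F[X]} (h : ∀ p, f ∣ p → f' ∣ bar σ m p) (a : F) :
    beta σ m h (algebraMap F (AdjoinRoot f) a) = algebraMap F (AdjoinRoot f') (σ a) := by
  rw [AdjoinRoot.algebraMap_eq, AdjoinRoot.algebraMap_eq, ← AdjoinRoot.mk_C, beta_mk, bar_C, AdjoinRoot.mk_C]

theorem card_eq [Finite F] {m : ℕ} {f f' : F[X]} (hf : Irreducible f) (hf' : Irreducible f') (h : ∀ p, f ∣ p → f' ∣ bar σ m p) (h' : ∀ p, f' ∣ p → f ∣ bar σ m p) :
    Nat.card (AdjoinRoot f) = Nat.card (AdjoinRoot f') := by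
  haveI : Fact (Irreducible f) := ⟨hf⟩
  haveI : Module.Finite F (AdjoinRoot f) := (AdjoinRoot.powerBasis hf.ne_zero).finite
  haveI : Finite (AdjoinRoot f) := Module.finite_of_finite F
  haveI : Fact (Irreducible f') := ⟨hf'⟩
  haveI : Module.Finite F (AdjoinRoot f') := (AdjoinRoot.powerBasis hf'.ne_zero).finite
  haveI : Finite (AdjoinRoot f') := Module.finite_of_finite F
  exact le_antisymm (Nat.card_le_card_of_injective _ (beta σ m h).injective) (Nat.card_le_card_of_injective _ (beta σ m h').injective)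

theorem det_elem [Finite F] (hσ : ∀ a, σ (σ a) = a) (hε : ε ≠ 0) (hσ1 : ∃ a, σ a ≠ a) {m : ℕ} (hm : 0 < m) (hmF : (m : F) ≠ 0)
    {V : Type*} [AddCommGroup V] [Module F V] [Module.Finite F V] {B : V → V → F} (hB : Frm σ ε B)
    {g : Module.End F V} (hg : ∀ x y, B (g x) (g y) = B x y) (hgm : g ^ m = 1) (hV : 0 < finrank F V) {δ : F} (hδ : δ * σ δ = 1) :
    ∃ D : Module.End F V, D * g = g * D ∧ LinearMap.det D = δ ∧ ∀ x y, B (D x) (D y) = B x y := by
  obtain ⟨x0, hx0, hx0δ⟩ := h90 σ hσ hσ1 hδ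
  have hδx : δ = x0 * (σ x0)⁻¹ := by
    rw [eq_mul_inv_iff_mul_eq₀ ((map_ne_zero σ).mpr hx0)]; exact hx0δ
  have hdeg : 0 < g.charpoly.natDegree := by
    rw [LinearMap.charpoly_natDegree]; exact hV
  obtain ⟨f, hf, hfd⟩ : ∃ f : F[X], Irreducible f ∧ f ∣ g.charpoly := by
    apply WfDvdMonoid.exists_irreducible_factor
    · intro hu
      rw [Polynomial.natDegree_eq_zero_of_isUnit hu] at hdeg
      exact absurd hdeg (lt_irrefl _)
    · exact g.charpoly_monic.ne_zero
  obtain ⟨v, hv, hfv⟩ := exists_ker hf hfd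
  have hfm : f ∣ X ^ m - 1 := by
    rw [← ker_ev hf hv hfv, ev_apply, map_sub, map_pow, aeval_X, hgm, map_one, sub_self]; rfl
  obtain ⟨f', hf', hd⟩ := exists_dual hσ hm hf hfm
  have hnt : ∃ c, ¬ f ∣ bar σ m c - c := by
    obtain ⟨a, ha⟩ := hσ1
    refine ⟨C a, ?_⟩
    rw [bar_C, ← map_sub]
    intro h1
    have h2 : IsUnit (C (σ a - a)) := isUnit_C.mpr (Ne.isUnit (sub_ne_zero.mpr ha))
    exact hf.not_isUnit (isUnit_of_dvd_unit h1 h2)
  haveI : Fact (Irreducible f) := ⟨hf⟩
  haveI : Module.Finite F (AdjoinRoot f) := (AdjoinRoot.powerBasis hf.ne_zero).finite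
  haveI : Finite (AdjoinRoot f) := Module.finite_of_finite F
  haveI : Fact (Irreducible f') := ⟨hf'⟩
  haveI : Module.Finite F (AdjoinRoot f') := (AdjoinRoot.powerBasis hf'.ne_zero).finite
  haveI : Finite (AdjoinRoot f') := Module.finite_of_finite F
  have hbf : f' ∣ bar σ m f := dual_bar hσ hm hd hfm
  have hβ : ∀ p, f ∣ p → f' ∣ bar σ m p := by
    rintro _ ⟨c, rfl⟩
    rw [map_mul]
    exact Dvd.dvd.mul_right hbf _
  have hβ' : ∀ p, f' ∣ p → f ∣ bar σ m p := fun p hp => (hd p).mpr hp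
  obtain ⟨k, hk⟩ := FiniteField.norm_surjective F (AdjoinRoot f) x0
  have hk0 : k ≠ 0 := by
    rintro rfl
    rw [Algebra.norm_zero] at hk
    exact hx0 hk.symm
  by_cases hff : f' ∣ f
  · -- the self-dual case
    obtain ⟨x, hfx, hx⟩ := exists_aniso hB hσ hg hm hgm hmF hf hf' hd hfm hε hff hnt hv hfv
    have hx0' : x ≠ 0 := by
      rintro rfl
      obtain ⟨p, hp⟩ := hx
      apply hp
      rw [map_zero, hB.zero_left]
    have hτ : ∀ p, f ∣ p → f ∣ bar σ m p := fun p hp => (hd p).mpr (hff.trans hp)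
    set τ := beta σ m hτ with hτd
    have hττ : ∀ y, τ (τ y) = y := by
      intro y
      obtain ⟨p, rfl⟩ := AdjoinRoot.mk_surjective y
      rw [hτd, beta_mk, beta_mk]
      exact AdjoinRoot.mk_eq_mk.mpr (bar_bar hσ hm hfm p)
    have hnorm : Algebra.norm F (τ k) = σ x0 := by
      rw [norm_semi τ (beta_alg hτ) rfl, hk]
    have hτk0 : τ k ≠ 0 := (map_ne_zero τ).mpr hk0
    obtain ⟨c, hc⟩ := AdjoinRoot.mk_surjective (k * (τ k)⁻¹)
    have hcc : f ∣ bar σ m c * c - 1 := by
      rw [← AdjoinRoot.mk_eq_mk, map_mul, ← beta_mk hτ, ← hτd, hc, map_mul, map_inv₀, hττ, map_one]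
      field_simp
    have nd : ∀ z ∈ LinearMap.range (ev g x), (∀ y ∈ LinearMap.range (ev g x), B z y = 0) → z = 0 := by
      rintro _ ⟨u, rfl⟩ hu
      rw [ev_apply]
      apply zero_of_dvd hfx
      apply fnl_nd hf (φ := fnl hB g x x) (fun p hp => fnl_dvd hB hfx hp) hx
      intro q
      rw [← fnl_bb hσ hm hfm (fun p hp => fnl_dvd hB hfx hp)]
      have := hu (ev g x (bar σ m q)) ⟨_, rfl⟩
      rw [ev_apply, ev_apply, adj' hB hσ hg hm hgm, ← Module.End.mul_apply, ← map_mul] at this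
      exact this
    have hcompl := perp_compl hB hσ _ nd
    obtain ⟨D, h1, h2, h3, h4⟩ := ext_cyc g hf hx0' hfx hcompl (perp_inv hB hσ hg hm hgm _ (range_inv g x)) c
    refine ⟨D, h1, ?_, ?_⟩
    · rw [h2, hc, map_mul, hk, hδx]
      congr 1
      have h5 : Algebra.norm F (τ k)⁻¹ * Algebra.norm F (τ k) = 1 := by
        rw [← map_mul, inv_mul_cancel₀ hτk0, map_one]
      rw [hnorm] at h5
      exact eq_inv_of_mul_eq_one_left h5
    · intro y z
      have hdec : ∀ y : V, ∃ a ∈ LinearMap.range (ev g x), ∃ b ∈ perp hB hσ (LinearMap.range (ev g x)), y = a + b := by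
        intro y
        have hy : y ∈ LinearMap.range (ev g x) ⊔ perp hB hσ (LinearMap.range (ev g x)) := by rw [hcompl.sup_eq_top]; exact Submodule.mem_top
        obtain ⟨a, ha, b, hb, rfl⟩ := Submodule.mem_sup.mp hy
        exact ⟨a, ha, b, hb, rfl⟩
      obtain ⟨a, ha, b, hb, rfl⟩ := hdec y
      obtain ⟨a', ha', b', hb', rfl⟩ := hdec z
      have hfa : aeval g f a = 0 := by
        obtain ⟨p, rfl⟩ := ha
        rw [ev_apply, ← Module.End.mul_apply, ← map_mul, mul_comm, map_mul, Module.End.mul_apply, hfx, map_zero]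
      have hin : ∀ a ∈ LinearMap.range (ev g x), aeval g c a ∈ LinearMap.range (ev g x) := by
        rintro _ ⟨p, rfl⟩
        exact ⟨c * p, by rw [ev_apply, ev_apply, map_mul, Module.End.mul_apply]⟩
      rw [map_add, map_add, h3 a ha, h4 b hb, h3 a' ha', h4 b' hb', hB.add_left, hB.add_right, hB.add_right, hB.add_left, hB.add_right, hB.add_right,
        hb' _ (hin a ha), hB.swap_zero (hb _ (hin a' ha')), hb' _ ha, hB.swap_zero (hb _ ha')]
      congr 2
      rw [adj' hB hσ hg hm hgm, ← Module.End.mul_apply, ← map_mul]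
      have h6 := zero_of_dvd hfa hcc
      rw [map_sub, map_one, LinearMap.sub_apply, sub_eq_zero] at h6
      rw [h6]; rfl
  · -- the hyperbolic case
    have hcase : ¬ (f' ∣ f ∧ ∃ c, ¬ f ∣ bar σ m c - c) := fun h => hff h.1
    obtain ⟨w, hfw, hw⟩ := exists_partner hB hσ hg hm hgm hmF hf' hd hfm hv hfv
    have hw0 : w ≠ 0 := by
      rintro rfl
      exact hw (hB.zero_right v)
    have hS := fun p r => isoS hB hσ hg hm hgm hf hf' hd hfm hcase hfv p r
    have hT := fun p r => isoT hB hσ hg hm hgm hf hf' hd hfm hcase hfw p r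
    set S := LinearMap.range (ev g v) with hSd
    set T := LinearMap.range (ev g w) with hTd
    have hfS : ∀ s ∈ S, aeval g f s = 0 := by
      rintro _ ⟨p, rfl⟩
      rw [ev_apply, ← Module.End.mul_apply, ← map_mul, mul_comm, map_mul, Module.End.mul_apply, hfv, map_zero]
    have hfT : ∀ t ∈ T, aeval g f' t = 0 := by
      rintro _ ⟨p, rfl⟩
      rw [ev_apply, ← Module.End.mul_apply, ← map_mul, mul_comm, map_mul, Module.End.mul_apply, hfw, map_zero]
    have hSS : ∀ s ∈ S, ∀ s' ∈ S, B s s' = 0 := by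
      rintro _ ⟨p, rfl⟩ _ ⟨r, rfl⟩
      exact hS p r
    have hTT : ∀ s ∈ T, ∀ s' ∈ T, B s s' = 0 := by
      rintro _ ⟨p, rfl⟩ _ ⟨r, rfl⟩
      exact hT p r
    have hinS : ∀ (c : F[X]), ∀ a ∈ S, aeval g c a ∈ S := by
      rintro c _ ⟨p, rfl⟩
      exact ⟨c * p, by rw [ev_apply, ev_apply, map_mul, Module.End.mul_apply]⟩
    have hinT : ∀ (c : F[X]), ∀ a ∈ T, aeval g c a ∈ T := by
      rintro c _ ⟨p, rfl⟩
      exact ⟨c * p, by rw [ev_apply, ev_apply, map_mul, Module.End.mul_apply]⟩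
    have hST : S ⊓ T = ⊥ := by
      rw [eq_bot_iff]
      rintro x ⟨h1, h2⟩
      obtain ⟨a, b, hab⟩ := (hf'.coprime_iff_not_dvd).mpr hff
      have h3 : aeval g (a * f' + b * f) x = x := by rw [hab, map_one]; rfl
      rw [map_add, map_mul, map_mul, LinearMap.add_apply, Module.End.mul_apply, Module.End.mul_apply, hfS x h1, hfT x h2, map_zero, map_zero, add_zero] at h3
      exact h3.symm
    have hpair1 : ∀ s ∈ S, (∀ t ∈ T, B s t = 0) → s = 0 := by
      rintro _ ⟨p, rfl⟩ h1
      rw [ev_apply]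
      apply zero_of_dvd hfv
      apply fnl_nd hf (φ := fnl hB g v w) (fun p hp => fnl_dvd hB hfv hp) ⟨1, by change B (aeval g 1 v) w ≠ 0; rw [map_one]; exact hw⟩
      intro q
      rw [← fnl_bb hσ hm hfm (fun p hp => fnl_dvd hB hfv hp)]
      have := h1 (ev g w (bar σ m q)) ⟨_, rfl⟩
      rw [ev_apply, ev_apply, adj' hB hσ hg hm hgm, ← Module.End.mul_apply, ← map_mul] at this
      exact this
    have hpair2 : ∀ t ∈ T, (∀ s ∈ S, B s t = 0) → t = 0 := by
      rintro _ ⟨p, rfl⟩ h1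
      rw [ev_apply]
      apply zero_of_dvd hfw
      rw [← hd]
      apply fnl_nd hf (φ := fnl hB g v w) (fun p hp => fnl_dvd hB hfv hp) ⟨1, by change B (aeval g 1 v) w ≠ 0; rw [map_one]; exact hw⟩
      intro q
      have := h1 (ev g v q) ⟨_, rfl⟩
      rw [ev_apply, ev_apply, adj' hB hσ hg hm hgm, ← Module.End.mul_apply, ← map_mul, mul_comm] at this
      exact this
    have nd : ∀ z ∈ S ⊔ T, (∀ y ∈ S ⊔ T, B z y = 0) → z = 0 := by
      intro z hz h1
      obtain ⟨s, hs, t, ht, rfl⟩ := Submodule.mem_sup.mp hz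
      have e1 : s = 0 := by
        apply hpair1 s hs
        intro t' ht'
        have := h1 t' (Submodule.mem_sup_right ht')
        rw [hB.add_left, hTT t ht t' ht', add_zero] at this
        exact this
      have e2 : t = 0 := by
        apply hpair2 t ht
        intro s' hs'
        have := h1 s' (Submodule.mem_sup_left hs')
        rw [hB.add_left, hSS s hs s' hs', zero_add] at this
        exact hB.swap_zero this
      rw [e1, e2, add_zero]
    have hcompl := perp_compl hB hσ _ nd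
    set Z := perp hB hσ (S ⊔ T) with hZd
    have hSTinv : ∀ x ∈ S ⊔ T, g x ∈ S ⊔ T := by
      intro x hx
      obtain ⟨s, hs, t, ht, rfl⟩ := Submodule.mem_sup.mp hx
      rw [map_add]
      exact Submodule.add_mem_sup (range_inv g v s hs) (range_inv g w t ht)
    have hZinv : ∀ x ∈ Z, g x ∈ Z := perp_inv hB hσ hg hm hgm _ hSTinv
    have hdec : ∀ y : V, ∃ s ∈ S, ∃ t ∈ T, ∃ z ∈ Z, y = s + t + z := by
      intro y
      have hy : y ∈ (S ⊔ T) ⊔ Z := by rw [hcompl.sup_eq_top]; exact Submodule.mem_top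
      obtain ⟨a, ha, z, hz, rfl⟩ := Submodule.mem_sup.mp hy
      obtain ⟨s, hs, t, ht, rfl⟩ := Submodule.mem_sup.mp ha
      exact ⟨s, hs, t, ht, z, hz, rfl⟩
    have hc1 : IsCompl S (T ⊔ Z) := by
      constructor
      · rw [disjoint_iff, eq_bot_iff]
        rintro x ⟨h1, h2⟩
        obtain ⟨t, ht, z, hz, htz⟩ := Submodule.mem_sup.mp h2
        have hz' : z ∈ (S ⊔ T) ⊓ Z := by
          refine ⟨?_, hz⟩
          have : z = x - t := by rw [← htz]; abel
          rw [this]
          exact (S ⊔ T).sub_mem (Submodule.mem_sup_left h1) (Submodule.mem_sup_right ht)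
        rw [hcompl.inf_eq_bot, Submodule.mem_bot] at hz'
        rw [hz', add_zero] at htz
        have : x ∈ S ⊓ T := ⟨h1, htz ▸ ht⟩
        rwa [hST] at this
      · rw [codisjoint_iff, ← sup_assoc]
        exact hcompl.sup_eq_top
    have hc2 : IsCompl T (S ⊔ Z) := by
      constructor
      · rw [disjoint_iff, eq_bot_iff]
        rintro x ⟨h1, h2⟩
        obtain ⟨t, ht, z, hz, htz⟩ := Submodule.mem_sup.mp h2
        have hz' : z ∈ (S ⊔ T) ⊓ Z := by
          refine ⟨?_, hz⟩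
          have : z = x - t := by rw [← htz]; abel
          rw [this]
          exact (S ⊔ T).sub_mem (Submodule.mem_sup_right h1) (Submodule.mem_sup_left ht)
        rw [hcompl.inf_eq_bot, Submodule.mem_bot] at hz'
        rw [hz', add_zero] at htz
        have : x ∈ S ⊓ T := ⟨htz ▸ ht, h1⟩
        rwa [hST] at this
      · rw [codisjoint_iff, ← sup_assoc, sup_comm T S]
        exact hcompl.sup_eq_top
    have hinv1 : ∀ x ∈ T ⊔ Z, g x ∈ T ⊔ Z := by
      intro x hx
      obtain ⟨s, hs, t, ht, rfl⟩ := Submodule.mem_sup.mp hx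
      rw [map_add]
      exact Submodule.add_mem_sup (range_inv g w s hs) (hZinv t ht)
    have hinv2 : ∀ x ∈ S ⊔ Z, g x ∈ S ⊔ Z := by
      intro x hx
      obtain ⟨s, hs, t, ht, rfl⟩ := Submodule.mem_sup.mp hx
      rw [map_add]
      exact Submodule.add_mem_sup (range_inv g v s hs) (hZinv t ht)
    obtain ⟨c, hc⟩ := AdjoinRoot.mk_surjective k
    obtain ⟨r, hr⟩ := AdjoinRoot.mk_surjective k⁻¹
    have hrc : f ∣ r * c - 1 := by
      rw [← AdjoinRoot.mk_eq_mk, map_mul, hr, hc, inv_mul_cancel₀ hk0, map_one]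
    obtain ⟨D, h1, h2, h3, h4⟩ := ext_cyc g hf hv hfv hc1 hinv1 c
    obtain ⟨D', h1', h2', h3', h4'⟩ := ext_cyc g hf' hw0 hfw hc2 hinv2 (bar σ m r)
    refine ⟨D * D', ?_, ?_, ?_⟩
    · rw [mul_assoc, h1', ← mul_assoc, h1, mul_assoc]
    · have h5 : Algebra.norm F (AdjoinRoot.mk f' (bar σ m r)) = σ (Algebra.norm F (AdjoinRoot.mk f r)) := by
        rw [← beta_mk hβ, norm_semi (beta σ m hβ) (beta_alg hβ) (card_eq hf hf' hβ hβ')]
      have h6 : Algebra.norm F (k⁻¹) = x0⁻¹ := by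
        apply eq_inv_of_mul_eq_one_left
        rw [← hk, ← map_mul, inv_mul_cancel₀ hk0, map_one]
      have h7 : LinearMap.det (D * D') = LinearMap.det D * LinearMap.det D' := LinearMap.det_comp D D'
      rw [h7, h2, h2', hc, hk, h5, hr, h6, map_inv₀, hδx]
    · intro y z
      obtain ⟨s, hs, t, ht, z1, hz1, rfl⟩ := hdec y
      obtain ⟨s', hs', t', ht', z2, hz2, rfl⟩ := hdec z
      have hD : ∀ s ∈ S, ∀ t ∈ T, ∀ z ∈ Z, (D * D') (s + t + z) = aeval g c s + aeval g (bar σ m r) t + z := by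
        intro s hs t ht z hz
        rw [Module.End.mul_apply, map_add, map_add, map_add, map_add, h4' s (Submodule.mem_sup_left hs), h3' t ht, h4' z (Submodule.mem_sup_right hz),
          h3 s hs, h4 _ (Submodule.mem_sup_left (hinT _ t ht)), h4 z (Submodule.mem_sup_right hz)]
      rw [hD s hs t ht z1 hz1, hD s' hs' t' ht' z2 hz2]
      have hcross : ∀ s ∈ S, ∀ t ∈ T, B (aeval g c s) (aeval g (bar σ m r) t) = B s t := by
        intro s hs t ht
        rw [adj' hB hσ hg hm hgm]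
        have e1 : aeval g (bar σ m (bar σ m r)) (aeval g c s) = s := by
          have e2 := zero_of_dvd (hfS _ (hinS c s hs)) (bar_bar hσ hm hfm r)
          rw [map_sub, LinearMap.sub_apply, sub_eq_zero] at e2
          have e3 := zero_of_dvd (hfS s hs) hrc
          rw [map_sub, map_one, map_mul, LinearMap.sub_apply, sub_eq_zero] at e3
          rw [e2]
          exact e3
        rw [e1]
      have z1' : ∀ u ∈ S ⊔ T, ∀ z ∈ Z, B u z = 0 := fun u hu z hz => hz u hu
      have expand : ∀ s ∈ S, ∀ t ∈ T, ∀ z ∈ Z, ∀ s' ∈ S, ∀ t' ∈ T, ∀ z' ∈ Z, B (s + t + z) (s' + t' + z') = B s t' + ε * σ (B s' t) + B z z' := by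
        intro s hs t ht z hz s' hs' t' ht' z' hz'
        rw [hB.add_left (s + t) z, hB.add_right _ (s' + t') z', hB.add_right z, z1' _ (Submodule.add_mem_sup hs ht) z' hz',
          hB.swap_zero (z1' _ (Submodule.add_mem_sup hs' ht') z hz), hB.add_left, hB.add_right, hB.add_right, hSS s hs s' hs', hTT t ht t' ht', hB.symm s' t]
        ring
      rw [expand _ (hinS c s hs) _ (hinT _ t ht) z1 hz1 _ (hinS c s' hs') _ (hinT _ t' ht') z2 hz2, expand s hs t ht z1 hz1 s' hs' t' ht' z2 hz2,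
        hcross s hs t' ht', hcross s' hs' t ht]

end Cfsg.Agent.H15.FM
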