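import Mathlib
import Cfsg.Agent.H15_UC1
import Cfsg.Agent.H5_Unit

set_option autoImplicit false
open Module Polynomial Matrix

namespace Cfsg.Agent.H15.FM

open Cfsg.Agent.H15.SS

section su

variable {F : Type*} [Field F] [Fintype F] {q : ℕ} (hF : Fintype.card F = q ^ 2) {n : ℕ}

include hF in
theorem q_ge : 2 ≤ q := by
  have h1 : 1 < Fintype.card F := Fintype.one_lt_card
  rw [hF] at h1
  by_contra hlt
  interval_cases q <;> simp at h1

theorem sig_ne : ∃ a, Cfsg.Agent.H5.Fld.frob hF a ≠ a := by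
  classical
  by_contra hcon
  push Not at hcon
  have hq := q_ge hF
  have h1 : ∀ a : F, (X ^ q - X : F[X]).IsRoot a := by
    intro a
    have := hcon a
    rw [Cfsg.Agent.H5.Fld.frob_apply] at this
    simp [Polynomial.IsRoot, this]
  have hne : (X ^ q - X : F[X]) ≠ 0 := FiniteField.X_pow_card_sub_X_ne_zero F (by omega)
  have h2 : Fintype.card F ≤ (X ^ q - X : F[X]).natDegree := by
    calc Fintype.card F = (Finset.univ : Finset F).card := (Finset.card_univ).symm
      _ ≤ (X ^ q - X : F[X]).roots.toFinset.card := by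
        apply Finset.card_le_card
        intro a _
        rw [Multiset.mem_toFinset, mem_roots hne]
        exact h1 a
      _ ≤ Multiset.card (X ^ q - X : F[X]).roots := Multiset.toFinset_card_le _
      _ ≤ _ := card_roots' _
  rw [FiniteField.X_pow_card_sub_X_natDegree_eq F (by omega), hF] at h2
  nlinarith

theorem hermFrm' (n : ℕ) : Frm (Cfsg.Agent.H5.Fld.frob hF) 1 (Cfsg.hermForm n F q) where
  add_left x y z := Cfsg.Agent.H5.Unit.herm_add_left x y z
  smul_left a x y := Cfsg.Agent.H5.Unit.herm_smul_left a x y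
  symm x y := by
    rw [one_mul, Cfsg.Agent.H5.Fld.frob_apply, Cfsg.Agent.H5.Unit.herm_swap hF]
  alt h := by
    obtain ⟨a, ha⟩ := sig_ne hF
    exact absurd (h a) ha
  nondeg x h := by
    funext i
    have := h (Pi.single i 1)
    rw [Cfsg.hermForm, Finset.sum_eq_single i] at this
    · simpa using this
    · intro j _ hj
      have hq := q_ge hF
      rw [Pi.single_eq_of_ne hj, zero_pow (by omega), mul_zero]
    · intro h; exact absurd (Finset.mem_univ i) h

theorem det_unit {E : Matrix (Fin n) (Fin n) F} (hE : ∀ x y, Cfsg.hermForm n F q (E *ᵥ x) (E *ᵥ y) = Cfsg.hermForm n F q x y) :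
    E.det * Cfsg.Agent.H5.Fld.frob hF E.det = 1 := by
  have hq := q_ge hF
  have h1 : Eᵀ * (E.map (Cfsg.Agent.H5.Fld.frob hF)) = 1 := by
    ext i j
    have := hE (Pi.single i 1) (Pi.single j 1)
    rw [Matrix.mul_apply]
    have e1 : ∀ i, E *ᵥ (Pi.single i 1) = fun k => E k i := by
      intro i
      rw [Matrix.mulVec_single_one]
      rfl
    rw [e1, e1, Cfsg.hermForm, Cfsg.hermForm] at this
    simp only [Matrix.transpose_apply, Matrix.map_apply, Cfsg.Agent.H5.Fld.frob_apply]
    rw [this, Matrix.one_apply]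
    split_ifs with h
    · subst h
      rw [Finset.sum_eq_single i]
      · simp
      · intro k _ hk
        rw [Pi.single_eq_of_ne hk, zero_mul]
      · intro h; exact absurd (Finset.mem_univ i) h
    · apply Finset.sum_eq_zero
      intro k _
      by_cases hk : k = i
      · subst hk
        have h0 : (Pi.single j (1 : F) : Fin n → F) k = 0 := Pi.single_eq_of_ne h _
        rw [h0, zero_pow (by omega), mul_zero]
      · rw [Pi.single_eq_of_ne hk, zero_mul]
  have h2 := congrArg Matrix.det h1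
  rw [Matrix.det_mul, Matrix.det_transpose, Matrix.det_one] at h2
  rw [RingHom.map_det]
  exact h2

theorem su_conj (hF : Fintype.card F = q ^ 2) (p : ℕ) [Fact p.Prime] [CharP F p]
    (g h : ↥(Cfsg.SU n F q)) (hg : (orderOf g).Coprime p) (hh : (orderOf h).Coprime p)
    (hc : ((g : Matrix.SpecialLinearGroup (Fin n) F) : Matrix (Fin n) (Fin n) F).charpoly =
      ((h : Matrix.SpecialLinearGroup (Fin n) F) : Matrix (Fin n) (Fin n) F).charpoly) : IsConj g h := by
  have hp : p.Prime := Fact.out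
  rcases Nat.eq_zero_or_pos n with h0 | hn
  · subst h0
    have : g = h := by
      apply Subtype.ext
      apply Subtype.ext
      exact Subsingleton.elim _ _
    rw [this]
  have hne : ∀ k : ℕ, k.Coprime p → k ≠ 0 := by
    rintro k hk rfl
    rw [Nat.coprime_zero_left] at hk
    exact hp.one_lt.ne' hk
  have hm : 0 < orderOf g * orderOf h := Nat.pos_of_ne_zero (mul_ne_zero (hne _ hg) (hne _ hh))
  have hmc : (orderOf g * orderOf h).Coprime p := Nat.Coprime.mul_left hg hh
  have hmF : ((orderOf g * orderOf h : ℕ) : F) ≠ 0 := by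
    intro h0
    rw [CharP.cast_eq_zero_iff F p] at h0
    exact hp.one_lt.ne' (Nat.Coprime.eq_one_of_dvd hmc.symm h0)
  have hpow : ∀ (k : ↥(Cfsg.SU n F q)) (j : ℕ), (Matrix.toLin' ((k : Matrix.SpecialLinearGroup (Fin n) F) : Matrix (Fin n) (Fin n) F) : Module.End F _) ^ j =
      Matrix.toLin' (((k ^ j : ↥(Cfsg.SU n F q)) : Matrix.SpecialLinearGroup (Fin n) F) : Matrix (Fin n) (Fin n) F) := by
    intro k j
    have h1 := (map_pow (Matrix.toLinAlgEquiv' : Matrix (Fin n) (Fin n) F ≃ₐ[F] _) ((k : Matrix.SpecialLinearGroup (Fin n) F) : Matrix (Fin n) (Fin n) F) j).symm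
    rw [SubgroupClass.coe_pow, Matrix.SpecialLinearGroup.coe_pow]
    exact h1
  have hg1 : (Matrix.toLin' ((g : Matrix.SpecialLinearGroup (Fin n) F) : Matrix (Fin n) (Fin n) F) : Module.End F _) ^ (orderOf g * orderOf h) = 1 := by
    rw [hpow, pow_mul, pow_orderOf_eq_one, one_pow]
    exact Matrix.toLin'_one
  have hh1 : (Matrix.toLin' ((h : Matrix.SpecialLinearGroup (Fin n) F) : Matrix (Fin n) (Fin n) F) : Module.End F _) ^ (orderOf g * orderOf h) = 1 := by
    rw [hpow, mul_comm, pow_mul, pow_orderOf_eq_one, one_pow]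
    exact Matrix.toLin'_one
  obtain ⟨e, he1, he2⟩ := main (Cfsg.Agent.H5.Fld.frob_frob hF) one_ne_zero hm hmF _ (hermFrm' hF n) (hermFrm' hF n)
    (g := Matrix.toLin' ((g : Matrix.SpecialLinearGroup (Fin n) F) : Matrix (Fin n) (Fin n) F)) (h := Matrix.toLin' ((h : Matrix.SpecialLinearGroup (Fin n) F) : Matrix (Fin n) (Fin n) F))
    g.2 h.2 hg1 hh1 rfl (by rw [Matrix.charpoly_toLin', Matrix.charpoly_toLin', hc])
  let E : Matrix (Fin n) (Fin n) F := LinearMap.toMatrix' (e : (Fin n → F) →ₗ[F] (Fin n → F))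
  have hE : ∀ x, E *ᵥ x = e x := by
    intro x
    rw [← Matrix.toLin'_apply, Matrix.toLin'_toMatrix']; rfl
  have hEh : ∀ x y, Cfsg.hermForm n F q (E *ᵥ x) (E *ᵥ y) = Cfsg.hermForm n F q x y := by
    intro x y
    rw [hE, hE]
    exact he2 x y
  have hdet := det_unit hF hEh
  have hdet0 : E.det ≠ 0 := left_ne_zero_of_mul_eq_one hdet
  have hδ : (E.det)⁻¹ * Cfsg.Agent.H5.Fld.frob hF (E.det)⁻¹ = 1 := by
    rw [map_inv₀, ← mul_inv, hdet, inv_one]
  obtain ⟨D, hD1, hD2, hD3⟩ := det_elem (Cfsg.Agent.H5.Fld.frob_frob hF) one_ne_zero (sig_ne hF) hm hmF (hermFrm' hF n)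
    (g := Matrix.toLin' ((g : Matrix.SpecialLinearGroup (Fin n) F) : Matrix (Fin n) (Fin n) F)) g.2 hg1 (by rw [Module.finrank_fin_fun]; exact hn) hδ
  let D' : Matrix (Fin n) (Fin n) F := LinearMap.toMatrix' D
  have hD' : ∀ x, D' *ᵥ x = D x := by
    intro x
    rw [← Matrix.toLin'_apply, Matrix.toLin'_toMatrix']
  have hdetD : D'.det = (E.det)⁻¹ := by rw [LinearMap.det_toMatrix', hD2]
  let k0 : Matrix.SpecialLinearGroup (Fin n) F := ⟨E * D', by rw [Matrix.det_mul, hdetD, mul_inv_cancel₀ hdet0]⟩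
  have hk0 : k0 ∈ Cfsg.SU n F q := by
    intro x y
    change Cfsg.hermForm n F q ((E * D') *ᵥ x) ((E * D') *ᵥ y) = Cfsg.hermForm n F q x y
    rw [← Matrix.mulVec_mulVec, ← Matrix.mulVec_mulVec, hEh, hD', hD']
    exact hD3 x y
  rw [isConj_iff]
  refine ⟨⟨k0, hk0⟩, ?_⟩
  rw [mul_inv_eq_iff_eq_mul]
  apply Subtype.ext
  apply Subtype.ext
  change (E * D') * ((g : Matrix.SpecialLinearGroup (Fin n) F) : Matrix (Fin n) (Fin n) F) = ((h : Matrix.SpecialLinearGroup (Fin n) F) : Matrix (Fin n) (Fin n) F) * (E * D')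
  have e1 : E * ((g : Matrix.SpecialLinearGroup (Fin n) F) : Matrix (Fin n) (Fin n) F) = ((h : Matrix.SpecialLinearGroup (Fin n) F) : Matrix (Fin n) (Fin n) F) * E := by
    apply Matrix.toLin'.injective
    rw [Matrix.toLin'_mul, Matrix.toLin'_mul]
    apply LinearMap.ext
    intro v
    rw [LinearMap.comp_apply, LinearMap.comp_apply, Matrix.toLin'_toMatrix']
    exact he1 v
  have e2 : D' * ((g : Matrix.SpecialLinearGroup (Fin n) F) : Matrix (Fin n) (Fin n) F) = ((g : Matrix.SpecialLinearGroup (Fin n) F) : Matrix (Fin n) (Fin n) F) * D' := by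
    apply Matrix.toLin'.injective
    rw [Matrix.toLin'_mul, Matrix.toLin'_mul, Matrix.toLin'_toMatrix']
    exact hD1
  rw [Matrix.mul_assoc, e2, ← Matrix.mul_assoc, e1, Matrix.mul_assoc]

end su

end Cfsg.Agent.H15.FM
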