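import Mathlib
import Cfsg.Agent.H5_Unit
import Cfsg.Agent.H15_UC2

set_option autoImplicit false

open Matrix Module Polynomial Cfsg.Agent.H5 Cfsg.Agent.H5.Unit Cfsg.Agent.H5.Conc Cfsg.Agent.H15.SS

namespace Cfsg.Agent.H15.SI

variable {F : Type*} [Field F] [Fintype F] {q : ℕ}

theorem two_ne (hF : Fintype.card F = q ^ 2) (hq : Odd q) : (2 : F) ≠ 0 := by
  apply Ring.two_ne_zero
  intro h
  have h1 := FiniteField.even_card_of_char_two h
  rw [hF] at h1
  exact (Nat.not_even_iff_odd.mpr hq.pow) (Nat.even_iff.mpr h1)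

theorem two_pow (hF : Fintype.card F = q ^ 2) : (2 : F) ^ q = 2 := by
  rw [← Fld.frob_apply hF]
  exact map_ofNat _ 2

/-- the matrix of the involution attached to `v` -/
def Rm (q : ℕ) (v : Fin 3 → F) : Matrix (Fin 3) (Fin 3) F :=
  -1 + (2 / Cfsg.hermForm 3 F q v v) • Matrix.vecMulVec v (fun j => v j ^ q)

omit [Fintype F] in
theorem Rm_mulVec (v x : Fin 3 → F) : Rm q v *ᵥ x = -x + (2 / Cfsg.hermForm 3 F q v v * Cfsg.hermForm 3 F q x v) • v := by
  rw [Rm, add_mulVec, neg_mulVec, one_mulVec, smul_mulVec, Matrix.vecMulVec_mulVec,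
    op_smul_eq_smul, smul_smul, dotProduct_comm]
  rfl

omit [Fintype F] in
theorem det_Rm {v : Fin 3 → F} (hv : Cfsg.hermForm 3 F q v v ≠ 0) : (Rm q v).det = 1 := by
  have h0 : Rm q v = -(1 + (-(2 / Cfsg.hermForm 3 F q v v)) • Matrix.vecMulVec v (fun j => v j ^ q)) := by
    rw [Rm, neg_smul]; abel
  have h1 : (-(2 / Cfsg.hermForm 3 F q v v)) • Matrix.vecMulVec v (fun j => v j ^ q) =
      Matrix.replicateCol Unit ((-(2 / Cfsg.hermForm 3 F q v v)) • v) * Matrix.replicateRow Unit (fun j => v j ^ q) := by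
    ext i j
    simp [Matrix.vecMulVec_apply, Matrix.mul_apply, mul_assoc]
  rw [h0, Matrix.det_neg, h1, Matrix.det_one_add_mul_comm]
  have h2 : Matrix.replicateRow Unit (fun j => v j ^ q) * Matrix.replicateCol Unit ((-(2 / Cfsg.hermForm 3 F q v v)) • v) = (-2 : F) • 1 := by
    ext i j
    rw [Matrix.mul_apply]
    simp only [Matrix.replicateRow_apply, Matrix.replicateCol_apply, Pi.smul_apply, smul_eq_mul,
      Matrix.smul_apply, Matrix.one_apply_eq]
    have : ∑ k, v k ^ q * (-(2 / Cfsg.hermForm 3 F q v v) * v k) = -(2 / Cfsg.hermForm 3 F q v v) * Cfsg.hermForm 3 F q v v := by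
      rw [Cfsg.hermForm, Finset.mul_sum]
      refine Finset.sum_congr rfl (fun i _ => ?_)
      ring
    rw [this]
    field_simp
  rw [h2, Matrix.det_unique, Matrix.add_apply, Matrix.smul_apply, Matrix.one_apply_eq, Fintype.card_fin, smul_eq_mul]
  ring

/-- the involution attached to a non-isotropic vector -/
def rv (hF : Fintype.card F = q ^ 2) (v : Fin 3 → F) (hv : Cfsg.hermForm 3 F q v v ≠ 0) : Cfsg.SU 3 F q :=
  ⟨⟨Rm q v, det_Rm hv⟩, by
    intro x y
    change Cfsg.hermForm 3 F q (Rm q v *ᵥ x) (Rm q v *ᵥ y) = _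
    rw [Rm_mulVec, Rm_mulVec, ← neg_one_smul F x, ← neg_one_smul F y]
    simp only [herm_add_left, herm_add_right hF, herm_smul_left, herm_smul_right, mul_pow, div_pow, two_pow hF, herm_swap hF]
    have h1 : (-1 : F) ^ q = -1 := by rw [← Fld.frob_apply hF, map_neg, map_one]
    rw [h1]
    field_simp
    ring⟩

theorem rv_apply (hF : Fintype.card F = q ^ 2) (v : Fin 3 → F) (hv : Cfsg.hermForm 3 F q v v ≠ 0) (x : Fin 3 → F) :
    mat (rv hF v hv) *ᵥ x = -x + (2 / Cfsg.hermForm 3 F q v v * Cfsg.hermForm 3 F q x v) • v := Rm_mulVec v x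

theorem rv_self (hF : Fintype.card F = q ^ 2) (v : Fin 3 → F) (hv : Cfsg.hermForm 3 F q v v ≠ 0) :
    mat (rv hF v hv) *ᵥ v = v := by
  rw [rv_apply, div_mul_cancel₀ _ hv, two_smul]; abel

theorem rv_perp (hF : Fintype.card F = q ^ 2) (v : Fin 3 → F) (hv : Cfsg.hermForm 3 F q v v ≠ 0) {x : Fin 3 → F} (hx : Cfsg.hermForm 3 F q x v = 0) :
    mat (rv hF v hv) *ᵥ x = -x := by
  rw [rv_apply, hx, mul_zero, zero_smul, add_zero]

theorem rv_sq (hF : Fintype.card F = q ^ 2) (v : Fin 3 → F) (hv : Cfsg.hermForm 3 F q v v ≠ 0) : rv hF v hv * rv hF v hv = 1 := by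
  apply SU_ext
  intro x
  rw [mat_mul, ← mulVec_mulVec, rv_apply, rv_apply]
  change _ = (1 : Matrix (Fin 3) (Fin 3) F) *ᵥ x
  rw [one_mulVec, ← neg_one_smul F x]
  simp only [herm_add_left, herm_smul_left]
  have h1 : 2 / Cfsg.hermForm 3 F q v v * (-1 * Cfsg.hermForm 3 F q x v + 2 / Cfsg.hermForm 3 F q v v * Cfsg.hermForm 3 F q x v * Cfsg.hermForm 3 F q v v) =
      2 / Cfsg.hermForm 3 F q v v * Cfsg.hermForm 3 F q x v := by
    field_simp
    ring
  rw [h1, neg_add, neg_one_smul, neg_neg, neg_add_cancel_right]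

theorem rv_fix (hF : Fintype.card F = q ^ 2) (hq : Odd q) {v : Fin 3 → F} (hv : Cfsg.hermForm 3 F q v v ≠ 0) {x : Fin 3 → F} (hx : mat (rv hF v hv) *ᵥ x = x) :
    ∃ c : F, x = c • v := by
  rw [rv_apply] at hx
  refine ⟨(2 : F)⁻¹ * (2 / Cfsg.hermForm 3 F q v v * Cfsg.hermForm 3 F q x v), ?_⟩
  have h2 := two_ne hF hq
  have h3 : (2 : F) • x = (2 / Cfsg.hermForm 3 F q v v * Cfsg.hermForm 3 F q x v) • v := by
    rw [two_smul]
    nth_rw 1 [← hx]
    abel
  rw [← smul_smul, ← h3, smul_smul, inv_mul_cancel₀ h2, one_smul]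

theorem ne_of_h {v : Fin 3 → F} (hv : Cfsg.hermForm 3 F q v v ≠ 0) : v ≠ 0 := by
  rintro rfl
  apply hv
  rw [← zero_smul F (0 : Fin 3 → F), herm_smul_left, zero_mul]

theorem rv_ne (hF : Fintype.card F = q ^ 2) (hq : Odd q) (v : Fin 3 → F) (hv : Cfsg.hermForm 3 F q v v ≠ 0) : rv hF v hv ≠ 1 := by
  intro h
  have h1 : (⊤ : Submodule F (Fin 3 → F)) ≤ Submodule.span F {v} := by
    intro x _
    obtain ⟨c, hc⟩ := rv_fix hF hq hv (x := x) (by rw [h]; exact one_mulVec x)
    exact Submodule.mem_span_singleton.mpr ⟨c, hc.symm⟩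
  have h2 := Submodule.finrank_mono h1
  rw [finrank_top, finrank_fin_fun] at h2
  rw [finrank_span_singleton (ne_of_h hv)] at h2
  omega

theorem rv_smul (hF : Fintype.card F = q ^ 2) (v : Fin 3 → F) (hv : Cfsg.hermForm 3 F q v v ≠ 0) (c : F) (hc : c ≠ 0)
    (hcv : Cfsg.hermForm 3 F q (c • v) (c • v) ≠ 0) : rv hF (c • v) hcv = rv hF v hv := by
  apply SU_ext
  intro x
  rw [rv_apply, rv_apply, herm_smul_left, herm_smul_right, herm_smul_right, smul_smul]
  congr 2
  have hcq : c ^ q ≠ 0 := pow_ne_zero q hc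
  field_simp

theorem rv_eq (hF : Fintype.card F = q ^ 2) (hq : Odd q) {v w : Fin 3 → F} {hv : Cfsg.hermForm 3 F q v v ≠ 0} {hw : Cfsg.hermForm 3 F q w w ≠ 0}
    (h : rv hF v hv = rv hF w hw) : ∃ c : F, w = c • v :=
  rv_fix hF hq hv (by rw [h]; exact rv_self hF w hw)

theorem rv_comm (hF : Fintype.card F = q ^ 2) (hq : Odd q) {v w : Fin 3 → F} (hv : Cfsg.hermForm 3 F q v v ≠ 0) (hw : Cfsg.hermForm 3 F q w w ≠ 0) :
    Commute (rv hF v hv) (rv hF w hw) ↔ Cfsg.hermForm 3 F q w v = 0 ∨ ∃ c : F, w = c • v := by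
  constructor
  · intro h
    have h1 : mat (rv hF w hw) *ᵥ (mat (rv hF v hv) *ᵥ w) = mat (rv hF v hv) *ᵥ w := by
      rw [mulVec_mulVec, ← mat_mul, ← h.eq, mat_mul, ← mulVec_mulVec, rv_self]
    obtain ⟨c, hc⟩ := rv_fix hF hq hw h1
    rw [rv_apply] at hc
    by_cases h0 : Cfsg.hermForm 3 F q w v = 0
    · exact Or.inl h0
    · right
      have h2 : (2 / Cfsg.hermForm 3 F q v v * Cfsg.hermForm 3 F q w v) • v = (c + 1) • w := by
        rw [add_smul, one_smul, ← hc]; abel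
      have hd : (2 / Cfsg.hermForm 3 F q v v * Cfsg.hermForm 3 F q w v) ≠ 0 := mul_ne_zero (div_ne_zero (two_ne hF hq) hv) h0
      have hv0 : v ≠ 0 := by
        rintro rfl
        apply hv
        rw [← zero_smul F (0 : Fin 3 → F), herm_smul_left, zero_mul]
      have hc1 : c + 1 ≠ 0 := by
        intro h3
        rw [h3, zero_smul] at h2
        exact (smul_ne_zero hd hv0) h2
      refine ⟨(c + 1)⁻¹ * (2 / Cfsg.hermForm 3 F q v v * Cfsg.hermForm 3 F q w v), ?_⟩
      rw [← smul_smul, h2, smul_smul, inv_mul_cancel₀ hc1, one_smul]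
  · rintro (h | ⟨c, hc⟩)
    · have h' : Cfsg.hermForm 3 F q v w = 0 := by
        rw [← herm_swap hF, h, zero_pow (by have := Fld.one_lt_q hF; omega)]
      apply SU_ext
      intro x
      rw [mat_mul, mat_mul, ← mulVec_mulVec, ← mulVec_mulVec, rv_apply hF w, rv_apply hF v, rv_apply hF v, rv_apply hF w, ← neg_one_smul F x]
      simp only [herm_add_left, herm_smul_left, h, h', mul_zero, add_zero]
      simp only [mul_neg, neg_mul, one_mul, neg_smul, one_smul, neg_add, neg_neg]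
      abel
    · subst hc
      have hc0 : c ≠ 0 := by
        rintro rfl
        apply hw
        rw [herm_smul_left, zero_mul]
      rw [rv_smul hF v hv c hc0 hw]

/-- scalar operators -/
theorem charpoly_scal {V : Type*} [AddCommGroup V] [Module F V] [Module.Finite F V] (c : F) :
    (c • (1 : Module.End F V)).charpoly = (X - C c) ^ finrank F V := by
  classical
  rw [← LinearMap.charpoly_toMatrix _ (Module.finBasis F V), map_smul]
  have : LinearMap.toMatrix (Module.finBasis F V) (Module.finBasis F V) (1 : Module.End F V) = 1 := LinearMap.toMatrix_one _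
  rw [this]
  have h2 : c • (1 : Matrix (Fin (finrank F V)) (Fin (finrank F V)) F) = Matrix.diagonal (fun _ => c) := by
    ext i j
    rw [Matrix.smul_apply, Matrix.diagonal_apply, Matrix.one_apply]
    split_ifs <;> simp
  rw [h2, Matrix.charpoly_diagonal, Finset.prod_const, Finset.card_univ, Fintype.card_fin]

/-- structure of involutions -/
theorem inv_struct (h2 : (2 : F) ≠ 0) {M : Matrix (Fin 3) (Fin 3) F} (hM : M * M = 1) (hdet : M.det = 1) (hM1 : M ≠ 1) :
    M.charpoly = (X - C 1) * (X - C (-1)) ^ 2 ∧ ∃ v : Fin 3 → F, v ≠ 0 ∧ M *ᵥ v = v ∧ ∀ x, M *ᵥ x = x → ∃ c : F, x = c • v := by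
  let T : Module.End F (Fin 3 → F) := Matrix.toLin' M
  have hT : ∀ x, T x = M *ᵥ x := fun x => Matrix.toLin'_apply M x
  have hTT : ∀ x, T (T x) = x := by
    intro x
    rw [hT, hT, mulVec_mulVec, hM, one_mulVec]
  let Ep : Submodule F (Fin 3 → F) := LinearMap.ker (T - 1)
  let Em : Submodule F (Fin 3 → F) := LinearMap.ker (T + 1)
  have hEp : ∀ x, x ∈ Ep ↔ T x = x := by
    intro x
    rw [LinearMap.mem_ker, LinearMap.sub_apply, Module.End.one_apply, sub_eq_zero]
  have hEm : ∀ x, x ∈ Em ↔ T x = -x := by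
    intro x
    rw [LinearMap.mem_ker, LinearMap.add_apply, Module.End.one_apply, add_eq_zero_iff_eq_neg]
  have hcompl : IsCompl Ep Em := by
    constructor
    · rw [Submodule.disjoint_def]
      intro x hx hx'
      have h3 := (hEp x).mp hx
      rw [(hEm x).mp hx'] at h3
      have h4 : (2 : F) • x = 0 := by
        rw [two_smul]; nth_rw 1 [← h3]; exact neg_add_cancel x
      exact (smul_eq_zero.mp h4).resolve_left h2
    · rw [codisjoint_iff, eq_top_iff]
      intro x _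
      rw [Submodule.mem_sup]
      refine ⟨(2 : F)⁻¹ • (x + T x), ?_, (2 : F)⁻¹ • (x - T x), ?_, ?_⟩
      · rw [hEp, map_smul, map_add, hTT, add_comm]
      · rw [hEm, map_smul, map_sub, hTT, ← smul_neg, neg_sub]
      · rw [← smul_add]
        have : x + T x + (x - T x) = (2 : F) • x := by rw [two_smul]; abel
        rw [this, smul_smul, inv_mul_cancel₀ h2, one_smul]
  have hp : ∀ x ∈ Ep, T x ∈ Ep := fun x hx => by rw [(hEp x).mp hx]; exact hx
  have hm : ∀ x ∈ Em, T x ∈ Em := fun x hx => by rw [(hEm x).mp hx]; exact Em.neg_mem hx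
  have hch := charpoly_split T hcompl hp hm
  have e1 : T.restrict hp = (1 : F) • (1 : Module.End F Ep) := by
    apply LinearMap.ext
    intro x
    apply Subtype.ext
    rw [one_smul]
    exact (hEp x).mp x.2
  have e2 : T.restrict hm = (-1 : F) • (1 : Module.End F Em) := by
    apply LinearMap.ext
    intro x
    apply Subtype.ext
    change T (x : Fin 3 → F) = (-1 : F) • (x : Fin 3 → F)
    rw [neg_one_smul]
    exact (hEm x).mp x.2
  rw [e1, e2, charpoly_scal, charpoly_scal] at hch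
  have hdim := Submodule.finrank_add_eq_of_isCompl hcompl
  rw [finrank_fin_fun] at hdim
  have hMch : T.charpoly = M.charpoly := Matrix.charpoly_toLin' M
  rw [hMch] at hch
  have h0 : M.charpoly.eval 0 = -1 := by
    have := Matrix.det_eq_sign_charpoly_coeff M
    rw [hdet, Fintype.card_fin, Polynomial.coeff_zero_eq_eval_zero] at this
    linear_combination this
  have h5 := h0
  rw [hch, eval_mul, eval_pow, eval_pow, eval_sub, eval_sub, eval_X, eval_C, eval_C, zero_sub, zero_sub, neg_neg, one_pow, mul_one] at h5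
  have h11 : (1 : F) ≠ -1 := by
    intro h
    apply h2
    linear_combination h
  have ha : finrank F Ep = 1 := by
    have hle : finrank F Ep ≤ 3 := by omega
    interval_cases h6 : finrank F Ep
    · rw [pow_zero] at h5; exact absurd h5 h11
    · rfl
    · rw [neg_one_sq] at h5; exact absurd h5 h11
    · exfalso
      apply hM1
      have h7 : Ep = ⊤ := Submodule.eq_top_of_finrank_eq (by rw [h6, finrank_fin_fun])
      apply ext_mulVec
      intro x
      rw [one_mulVec, ← hT]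
      exact (hEp x).mp (by rw [h7]; exact Submodule.mem_top)
  have hb : finrank F Em = 2 := by omega
  rw [ha, hb, pow_one] at hch
  refine ⟨hch, ?_⟩
  obtain ⟨v, hv, hv'⟩ := finrank_eq_one_iff'.mp ha
  refine ⟨v, fun h => hv (Subtype.ext h), ?_, ?_⟩
  · rw [← hT]; exact (hEp v).mp v.2
  · intro x hx
    obtain ⟨c, hc⟩ := hv' ⟨x, (hEp x).mpr (by rw [hT]; exact hx)⟩
    exact ⟨c, (congrArg Subtype.val hc).symm⟩

theorem mat_one : mat (1 : Cfsg.SU 3 F q) = 1 := rfl

theorem exists_rv (hF : Fintype.card F = q ^ 2) (hq : Odd q) (t : Cfsg.SU 3 F q) (ht : t ≠ 1) (ht2 : t * t = 1) :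
    ∃ (v : Fin 3 → F) (hv : Cfsg.hermForm 3 F q v v ≠ 0), t = rv hF v hv := by
  have h2 := two_ne hF hq
  have hM : mat t * mat t = 1 := by rw [← mat_mul, ht2]; rfl
  obtain ⟨_, v, hv0, hv1, hv2⟩ := inv_struct h2 hM (t : Matrix.SpecialLinearGroup (Fin 3) F).2 (fun h => ht (Subtype.ext (Subtype.ext h)))
  -- decomposition
  have hdec : ∀ x : Fin 3 → F, ∃ (c : F) (b : Fin 3 → F), x = c • v + b ∧ mat t *ᵥ b = -b := by
    intro x
    obtain ⟨c, hc⟩ := hv2 ((2 : F)⁻¹ • (x + mat t *ᵥ x)) (by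
      rw [mulVec_smul, mulVec_add, mulVec_mulVec, hM, one_mulVec, add_comm])
    refine ⟨c, (2 : F)⁻¹ • (x - mat t *ᵥ x), ?_, ?_⟩
    · rw [← hc, ← smul_add]
      have : x + mat t *ᵥ x + (x - mat t *ᵥ x) = (2 : F) • x := by rw [two_smul]; abel
      rw [this, smul_smul, inv_mul_cancel₀ h2, one_smul]
    · rw [mulVec_smul, mulVec_sub, mulVec_mulVec, hM, one_mulVec, ← smul_neg, neg_sub]
  have hperp : ∀ b : Fin 3 → F, mat t *ᵥ b = -b → Cfsg.hermForm 3 F q b v = 0 := by
    intro b hb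
    have h1 := SU_herm t b v
    rw [hb, hv1, ← neg_one_smul F b, herm_smul_left] at h1
    have h3 : (2 : F) * Cfsg.hermForm 3 F q b v = 0 := by linear_combination -h1
    exact (mul_eq_zero.mp h3).resolve_left h2
  have hv : Cfsg.hermForm 3 F q v v ≠ 0 := by
    intro h
    apply hv0
    apply (Cfsg.Agent.H15.FM.hermFrm' hF 3).nondeg_right
    intro y
    obtain ⟨c, b, rfl, hb⟩ := hdec y
    rw [herm_add_left, herm_smul_left, h, hperp b hb, mul_zero, add_zero]
  refine ⟨v, hv, ?_⟩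
  apply SU_ext
  intro x
  obtain ⟨c, b, rfl, hb⟩ := hdec x
  rw [rv_apply, mulVec_add, mulVec_smul, hv1, hb, herm_add_left, herm_smul_left, hperp b hb, add_zero]
  have : 2 / Cfsg.hermForm 3 F q v v * (c * Cfsg.hermForm 3 F q v v) = 2 * c := by field_simp
  rw [this, mul_smul, two_smul]
  abel

theorem inv_charpoly (hF : Fintype.card F = q ^ 2) (hq : Odd q) (t : Cfsg.SU 3 F q) (ht : t ≠ 1) (ht2 : t * t = 1) :
    (mat t).charpoly = (X - C 1) * (X - C (-1)) ^ 2 :=
  (inv_struct (two_ne hF hq) (by rw [← mat_mul, ht2]; rfl) (t : Matrix.SpecialLinearGroup (Fin 3) F).2 (fun h => ht (Subtype.ext (Subtype.ext h)))).1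

/-- all involutions are conjugate -/
theorem all_conj (hF : Fintype.card F = q ^ 2) (hq : Odd q) (t x : Cfsg.SU 3 F q) (ht : t ≠ 1) (ht2 : t * t = 1) (hx : x ≠ 1) (hx2 : x * x = 1) :
    IsConj t x := by
  obtain ⟨p, hp, k, hpp, hcard⟩ := FiniteField.card' F
  haveI : Fact p.Prime := ⟨hpp⟩
  haveI : CharP F p := hp
  have hp2 : p ≠ 2 := by
    rintro rfl
    apply two_ne hF hq
    exact CharP.cast_eq_zero F 2
  have h2 : ∀ s : Cfsg.SU 3 F q, s ≠ 1 → s * s = 1 → (orderOf s).Coprime p := by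
    intro s hs hs2
    rw [orderOf_eq_prime (by rw [pow_two]; exact hs2) hs]
    exact (Nat.coprime_primes Nat.prime_two hpp).mpr (Ne.symm hp2)
  apply Cfsg.Agent.H15.FM.su_conj hF p t x (h2 t ht ht2) (h2 x hx hx2)
  change (mat t).charpoly = (mat x).charpoly
  rw [inv_charpoly hF hq t ht ht2, inv_charpoly hF hq x hx hx2]

/-- counting involutions by counting vectors -/
theorem fib (hF : Fintype.card F = q ^ 2) (hq : Odd q) (P : Cfsg.SU 3 F q → Prop) :
    Nat.card {v : Fin 3 → F // ∃ hv : Cfsg.hermForm 3 F q v v ≠ 0, P (rv hF v hv)} =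
      Nat.card {x : Cfsg.SU 3 F q // x ≠ 1 ∧ x * x = 1 ∧ P x} * (q ^ 2 - 1) := by
  classical
  have hch : ∀ x : {x : Cfsg.SU 3 F q // x ≠ 1 ∧ x * x = 1 ∧ P x}, ∃ (v : Fin 3 → F) (hv : Cfsg.hermForm 3 F q v v ≠ 0), x.1 = rv hF v hv :=
    fun x => exists_rv hF hq x.1 x.2.1 x.2.2.1
  choose r hr hr' using hch
  have hu : Nat.card Fˣ = q ^ 2 - 1 := by
    rw [Nat.card_eq_fintype_card, Fintype.card_units, hF]
  rw [← hu, ← Nat.card_prod]
  symm
  apply Nat.card_congr
  have hns : ∀ (c : Fˣ) (v : Fin 3 → F), Cfsg.hermForm 3 F q v v ≠ 0 → Cfsg.hermForm 3 F q ((c : F) • v) ((c : F) • v) ≠ 0 := by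
    intro c v hv
    rw [herm_smul_left, herm_smul_right]
    exact mul_ne_zero c.ne_zero (mul_ne_zero (pow_ne_zero q c.ne_zero) hv)
  refine Equiv.ofBijective (fun xc => ⟨(xc.2 : F) • r xc.1, hns xc.2 _ (hr xc.1), ?_⟩) ⟨?_, ?_⟩
  · rw [rv_smul hF (r xc.1) (hr xc.1) xc.2 xc.2.ne_zero, ← hr' xc.1]
    exact xc.1.2.2.2
  · rintro ⟨x, c⟩ ⟨x', c'⟩ h
    have h1 : (c : F) • r x = (c' : F) • r x' := congrArg Subtype.val h
    have h2 : x = x' := by
      apply Subtype.ext
      rw [hr' x, hr' x', ← rv_smul hF (r x) (hr x) c c.ne_zero (hns c _ (hr x)), ← rv_smul hF (r x') (hr x') c' c'.ne_zero (hns c' _ (hr x'))]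
      congr 1
    subst h2
    have h3 : (c : F) = c' := smul_left_injective F (ne_of_h (hr x)) h1
    rw [Units.ext h3]
  · rintro ⟨v, hv, hPv⟩
    let x : {x : Cfsg.SU 3 F q // x ≠ 1 ∧ x * x = 1 ∧ P x} := ⟨rv hF v hv, rv_ne hF hq v hv, rv_sq hF v hv, hPv⟩
    obtain ⟨c, hc⟩ := rv_eq (hw := hv) hF hq (hr' x).symm
    have hc0 : c ≠ 0 := by
      rintro rfl
      apply hv
      rw [hc, herm_smul_left, zero_mul]
    exact ⟨(x, Units.mk0 c hc0), Subtype.ext hc.symm⟩

end Cfsg.Agent.H15.SI
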