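import Mathlib
import Cfsg.Agent.H15_SI1

set_option autoImplicit false

open Matrix Module Cfsg.Agent.H5 Cfsg.Agent.H5.Unit Cfsg.Agent.H5.Conc Cfsg.Agent.H5.Herm Cfsg.Agent.H5.Frm

namespace Cfsg.Agent.H15.SI

variable {F : Type*} [Field F] [Fintype F] {q : ℕ}

theorem mem_orth1 (hF : Fintype.card F = q ^ 2) (v x : Fin 3 → F) : x ∈ (hermFrm hF 3).orth (Submodule.span F {v}) ↔ Cfsg.hermForm 3 F q x v = 0 := by
  rw [orth_span_singleton, LinearMap.mem_ker, hermFrm_B]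

theorem mem_orth2 (hF : Fintype.card F = q ^ 2) (v w x : Fin 3 → F) : x ∈ (hermFrm hF 3).orth (Submodule.span F {v, w}) ↔
    Cfsg.hermForm 3 F q x v = 0 ∧ Cfsg.hermForm 3 F q x w = 0 := by
  have hq := Fld.one_lt_q hF
  rw [mem_orth]
  constructor
  · intro h
    exact ⟨by rw [← hermFrm_B hF]; exact h v (Submodule.subset_span (by simp)), by rw [← hermFrm_B hF]; exact h w (Submodule.subset_span (by simp))⟩
  · rintro ⟨h1, h2⟩ u hu
    obtain ⟨a, b, rfl⟩ := Submodule.mem_span_pair.mp hu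
    rw [hermFrm_B, herm_add_right hF, herm_smul_right, herm_smul_right, h1, h2, mul_zero, mul_zero, add_zero]

theorem nd1 (hF : Fintype.card F = q ^ 2) {v : Fin 3 → F} (hv : Cfsg.hermForm 3 F q v v ≠ 0) : ((hermFrm hF 3).restrict (Submodule.span F {v})).Nondeg := by
  rintro ⟨x, hx⟩ h
  obtain ⟨c, rfl⟩ := Submodule.mem_span_singleton.mp hx
  have h1 := h ⟨v, Submodule.mem_span_singleton_self v⟩
  rw [restrict_B, hermFrm_B, herm_smul_right] at h1
  have hc : c = 0 := by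
    rcases mul_eq_zero.mp h1 with h2 | h2
    · exact pow_eq_zero_iff (by have := Fld.one_lt_q hF; omega) |>.mp h2
    · exact absurd h2 hv
  apply Subtype.ext
  change c • v = 0
  rw [hc, zero_smul]

theorem fr1 (hF : Fintype.card F = q ^ 2) {v : Fin 3 → F} (hv : v ≠ 0) : finrank F ((hermFrm hF 3).orth (Submodule.span F {v})) = 2 := by
  have h := finrank_orth (hermFrm_nondeg hF 3) (Submodule.span F {v})
  rw [finrank_span_singleton hv, finrank_fin_fun] at h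
  omega

theorem card_all (hF : Fintype.card F = q ^ 2) : Nat.card (Fin 3 → F) = q ^ 6 := by
  rw [Nat.card_eq_fintype_card, Fintype.card_fun, hF, Fintype.card_fin]; ring

/-- number of non-isotropic vectors -/
theorem card_ni (hF : Fintype.card F = q ^ 2) : Nat.card {v : Fin 3 → F // Cfsg.hermForm 3 F q v v ≠ 0} = q ^ 2 * (q ^ 2 - q + 1) * (q ^ 2 - 1) := by
  classical
  have hq := Fld.one_lt_q hF
  have h1 := N0_eq (hermFrm hF 3) (hermFrm_isHerm hF 3) (hermFrm_nondeg hF 3)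
  rw [finrank_fin_fun, if_neg (by decide), N0] at h1
  simp only [hermFrm_Q] at h1
  have h2 : Nat.card {v : Fin 3 → F // Cfsg.hermForm 3 F q v v = 0} + Nat.card {v : Fin 3 → F // Cfsg.hermForm 3 F q v v ≠ 0} = q ^ 6 := by
    rw [← Nat.card_sum, ← card_all hF]
    exact Nat.card_congr (Equiv.sumCompl _)
  rw [h1] at h2
  obtain ⟨k, rfl⟩ : ∃ k, q = k + 2 := ⟨q - 2, by omega⟩
  have e1 : (k + 2) ^ (3 - 1) - 1 = k ^ 2 + 4 * k + 3 := by
    have : (k + 2) ^ (3 - 1) = k ^ 2 + 4 * k + 3 + 1 := by norm_num; ring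
    omega
  have e2 : (k + 2) ^ 2 - (k + 2) + 1 = k ^ 2 + 3 * k + 3 := by
    have : (k + 2) ^ 2 = k ^ 2 + 3 * k + 2 + (k + 2) := by ring
    omega
  have e3 : (k + 2) ^ 2 - 1 = k ^ 2 + 4 * k + 3 := by
    have : (k + 2) ^ 2 = k ^ 2 + 4 * k + 3 + 1 := by ring
    omega
  rw [e1] at h2
  rw [e2, e3]
  have e4 : ((k + 2) ^ 3 + 1) * (k ^ 2 + 4 * k + 3) + 1 + (k + 2) ^ 2 * (k ^ 2 + 3 * k + 3) * (k ^ 2 + 4 * k + 3) = (k + 2) ^ 6 := by ring
  omega

/-- isotropic vectors in the orthogonal complement -/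
theorem card_iso_perp (hF : Fintype.card F = q ^ 2) {v : Fin 3 → F} (hv : Cfsg.hermForm 3 F q v v ≠ 0) :
    Nat.card {x : Fin 3 → F // Cfsg.hermForm 3 F q x v = 0 ∧ Cfsg.hermForm 3 F q x x = 0} = (q ^ 2 - 1) * (q + 1) + 1 ∧
    Nat.card {x : Fin 3 → F // Cfsg.hermForm 3 F q x x ≠ 0 ∧ Cfsg.hermForm 3 F q x v = 0} = q * (q - 1) * (q ^ 2 - 1) := by
  classical
  have hq := Fld.one_lt_q hF
  have h1 := N0_eq ((hermFrm hF 3).restrict ((hermFrm hF 3).orth (Submodule.span F {v}))) ((hermFrm_isHerm hF 3).restrict _)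
    (nondeg_orth (hermFrm_nondeg hF 3) (nd1 hF hv))
  rw [fr1 hF (ne_of_h hv), if_pos (by decide), N0] at h1
  have e1 : Nat.card {x : Fin 3 → F // Cfsg.hermForm 3 F q x v = 0 ∧ Cfsg.hermForm 3 F q x x = 0} = (q ^ 2 - 1) * (q + 1) + 1 := by
    rw [show (2 : ℕ) - 1 = 1 from rfl, pow_one] at h1
    rw [← h1]
    apply Nat.card_congr
    refine ⟨fun x => ⟨⟨x.1, (mem_orth1 hF v x.1).mpr x.2.1⟩, x.2.2⟩, fun x => ⟨x.1.1, (mem_orth1 hF v x.1.1).mp x.1.2, x.2⟩, fun x => rfl, fun x => rfl⟩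
  refine ⟨e1, ?_⟩
  have e2 : Nat.card {x : Fin 3 → F // Cfsg.hermForm 3 F q x v = 0} = q ^ 4 := by
    have : Nat.card ((hermFrm hF 3).orth (Submodule.span F {v})) = q ^ 4 := by
      rw [Module.natCard_eq_pow_finrank (K := F), fr1 hF (ne_of_h hv), Nat.card_eq_fintype_card, hF]; ring
    rw [← this]
    exact Nat.card_congr ⟨fun x => ⟨x.1, (mem_orth1 hF v x.1).mpr x.2⟩, fun x => ⟨x.1, (mem_orth1 hF v x.1).mp x.2⟩, fun x => rfl, fun x => rfl⟩
  have e3 : Nat.card {x : Fin 3 → F // Cfsg.hermForm 3 F q x v = 0 ∧ Cfsg.hermForm 3 F q x x = 0} +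
      Nat.card {x : Fin 3 → F // Cfsg.hermForm 3 F q x x ≠ 0 ∧ Cfsg.hermForm 3 F q x v = 0} = q ^ 4 := by
    rw [← e2, ← Nat.card_sum]
    apply Nat.card_congr
    refine Equiv.ofBijective (Sum.elim (fun x => ⟨x.1, x.2.1⟩) (fun x => ⟨x.1, x.2.2⟩)) ⟨?_, ?_⟩
    · rintro (⟨x, hx⟩ | ⟨x, hx⟩) (⟨y, hy⟩ | ⟨y, hy⟩) h
      · have : x = y := congrArg Subtype.val h
        subst this; rfl
      · have : x = y := congrArg Subtype.val h
        subst this; exact absurd hx.2 hy.1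
      · have : x = y := congrArg Subtype.val h
        subst this; exact absurd hy.2 hx.1
      · have : x = y := congrArg Subtype.val h
        subst this; rfl
    · rintro ⟨x, hx⟩
      by_cases h : Cfsg.hermForm 3 F q x x = 0
      · exact ⟨Sum.inl ⟨x, hx, h⟩, rfl⟩
      · exact ⟨Sum.inr ⟨x, h, hx⟩, rfl⟩
  rw [e1] at e3
  obtain ⟨k, rfl⟩ : ∃ k, q = k + 2 := ⟨q - 2, by omega⟩
  have e4 : (k + 2) ^ 2 - 1 = k ^ 2 + 4 * k + 3 := by
    have : (k + 2) ^ 2 = k ^ 2 + 4 * k + 3 + 1 := by ring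
    omega
  rw [e4] at e3 ⊢
  rw [show k + 2 - 1 = k + 1 by omega]
  have e5 : (k ^ 2 + 4 * k + 3) * (k + 2 + 1) + 1 + (k + 2) * (k + 1) * (k ^ 2 + 4 * k + 3) = (k + 2) ^ 4 := by ring
  omega

theorem fr2 (hF : Fintype.card F = q ^ 2) {v w : Fin 3 → F} (hv : v ≠ 0) (hw : ∀ c : F, w ≠ c • v) :
    finrank F ((hermFrm hF 3).orth (Submodule.span F {v, w})) = 1 := by
  have h := finrank_orth (hermFrm_nondeg hF 3) (Submodule.span F {v, w})
  have hli : LinearIndependent F ![v, w] := by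
    rw [LinearIndependent.pair_iff' hv]
    intro c h
    exact hw c h.symm
  have h2 : finrank F (Submodule.span F {v, w}) = 2 := by
    have := finrank_span_eq_card hli
    rw [Fintype.card_fin] at this
    rwa [Matrix.range_cons, Matrix.range_cons, Matrix.range_empty, Set.union_empty, Set.singleton_union] at this
  rw [h2, finrank_fin_fun] at h
  omega

/-- claim A -/
theorem claimA (hF : Fintype.card F = q ^ 2) {v w : Fin 3 → F} (hd : Cfsg.hermForm 3 F q v v * Cfsg.hermForm 3 F q w w ≠ Cfsg.hermForm 3 F q v w * Cfsg.hermForm 3 F q w v) :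
    ∃ u, Cfsg.hermForm 3 F q u v = 0 ∧ Cfsg.hermForm 3 F q u w = 0 ∧ Cfsg.hermForm 3 F q u u ≠ 0 := by
  have hv : v ≠ 0 := by
    rintro rfl
    apply hd
    have e0 : ∀ y : Fin 3 → F, Cfsg.hermForm 3 F q 0 y = 0 := fun y => by rw [← zero_smul F (0 : Fin 3 → F), herm_smul_left, zero_mul]
    rw [e0, e0, zero_mul, zero_mul]
  have hw : ∀ c : F, w ≠ c • v := by
    rintro c rfl
    apply hd
    simp only [herm_smul_left, herm_smul_right]
    ring
  obtain ⟨u, hu, hu'⟩ := finrank_eq_one_iff'.mp (fr2 hF hv hw)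
  obtain ⟨h1, h2⟩ := (mem_orth2 hF v w u).mp u.2
  refine ⟨u, h1, h2, fun h3 => ?_⟩
  apply hu
  have h4 : (u : Fin 3 → F) ∈ (hermFrm hF 3).orth ((hermFrm hF 3).orth (Submodule.span F {v, w})) := by
    rw [mem_orth]
    intro y hy
    obtain ⟨c, hc⟩ := hu' ⟨y, hy⟩
    have hc' : c • (u : Fin 3 → F) = y := congrArg Subtype.val hc
    rw [← hc', hermFrm_B, herm_smul_right, h3, mul_zero]
  rw [orth_orth (hermFrm_nondeg hF 3)] at h4
  obtain ⟨a, b, hab⟩ := Submodule.mem_span_pair.mp h4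
  have e1 : a * Cfsg.hermForm 3 F q v v + b * Cfsg.hermForm 3 F q w v = 0 := by
    rw [← hab, herm_add_left, herm_smul_left, herm_smul_left] at h1; exact h1
  have e2 : a * Cfsg.hermForm 3 F q v w + b * Cfsg.hermForm 3 F q w w = 0 := by
    rw [← hab, herm_add_left, herm_smul_left, herm_smul_left] at h2; exact h2
  have hd' : Cfsg.hermForm 3 F q v v * Cfsg.hermForm 3 F q w w - Cfsg.hermForm 3 F q v w * Cfsg.hermForm 3 F q w v ≠ 0 := sub_ne_zero.mpr hd
  have ha : a = 0 := by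
    have : a * (Cfsg.hermForm 3 F q v v * Cfsg.hermForm 3 F q w w - Cfsg.hermForm 3 F q v w * Cfsg.hermForm 3 F q w v) = 0 := by
      linear_combination Cfsg.hermForm 3 F q w w * e1 - Cfsg.hermForm 3 F q w v * e2
    exact (mul_eq_zero.mp this).resolve_right hd'
  have hb : b = 0 := by
    have : b * (Cfsg.hermForm 3 F q v v * Cfsg.hermForm 3 F q w w - Cfsg.hermForm 3 F q v w * Cfsg.hermForm 3 F q w v) = 0 := by
      linear_combination Cfsg.hermForm 3 F q v v * e2 - Cfsg.hermForm 3 F q v w * e1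
    exact (mul_eq_zero.mp this).resolve_right hd'
  apply Subtype.ext
  rw [← hab, ha, hb, zero_smul, zero_smul, add_zero]; rfl

/-- claim B -/
theorem claimB (hF : Fintype.card F = q ^ 2) {v w : Fin 3 → F} (hv : Cfsg.hermForm 3 F q v v ≠ 0) (hw : ∀ c : F, w ≠ c • v)
    (hd : Cfsg.hermForm 3 F q v v * Cfsg.hermForm 3 F q w w = Cfsg.hermForm 3 F q v w * Cfsg.hermForm 3 F q w v)
    {u : Fin 3 → F} (h1 : Cfsg.hermForm 3 F q u v = 0) (h2 : Cfsg.hermForm 3 F q u w = 0) : Cfsg.hermForm 3 F q u u = 0 := by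
  obtain ⟨z, hz⟩ : ∃ z, z = w + (-(Cfsg.hermForm 3 F q w v / Cfsg.hermForm 3 F q v v)) • v := ⟨_, rfl⟩
  have hzv : Cfsg.hermForm 3 F q z v = 0 := by
    rw [hz, herm_add_left, herm_smul_left]; field_simp; ring
  have hzw : Cfsg.hermForm 3 F q z w = 0 := by
    rw [hz, herm_add_left, herm_smul_left]; field_simp; linear_combination hd
  have hz0 : z ≠ 0 := by
    intro h
    rw [hz, neg_smul, ← sub_eq_add_neg, sub_eq_zero] at h
    exact hw _ h
  obtain ⟨g, hg, hg'⟩ := finrank_eq_one_iff'.mp (fr2 hF (ne_of_h hv) hw)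
  obtain ⟨a, ha⟩ := hg' ⟨u, (mem_orth2 hF v w u).mpr ⟨h1, h2⟩⟩
  obtain ⟨b, hb⟩ := hg' ⟨z, (mem_orth2 hF v w z).mpr ⟨hzv, hzw⟩⟩
  have ha' : a • (g : Fin 3 → F) = u := congrArg Subtype.val ha
  have hb' : b • (g : Fin 3 → F) = z := congrArg Subtype.val hb
  have hb0 : b ≠ 0 := by
    rintro rfl
    rw [zero_smul] at hb'
    exact hz0 hb'.symm
  have hg2 : (g : Fin 3 → F) = b⁻¹ • z := by rw [← hb', smul_smul, inv_mul_cancel₀ hb0, one_smul]
  have hzz : Cfsg.hermForm 3 F q z z = 0 := by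
    nth_rw 2 [hz]
    rw [herm_add_right hF, herm_smul_right, hzv, hzw, mul_zero, add_zero]
  rw [← ha', hg2, smul_smul, herm_smul_left, herm_smul_right, hzz, mul_zero, mul_zero]

end Cfsg.Agent.H15.SI
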