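import Mathlib
import Cfsg.Agent.H15_SI2

set_option autoImplicit false

open Matrix Module Cfsg.Agent.H5 Cfsg.Agent.H5.Unit Cfsg.Agent.H5.Conc Cfsg.Agent.H5.Herm

namespace Cfsg.Agent.H15.SI

variable {F : Type*} [Field F] [Fintype F] {q : ℕ}

theorem q2_pos (hF : Fintype.card F = q ^ 2) : 0 < q ^ 2 - 1 := by
  have hq := Fld.one_lt_q hF
  have : 2 ^ 2 ≤ q ^ 2 := Nat.pow_le_pow_left hq 2
  omega

/-- number of involutions -/
theorem card_inv (hF : Fintype.card F = q ^ 2) (hq : Odd q) :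
    Nat.card {x : ↥(Cfsg.SU 3 F q) // x ≠ 1 ∧ x * x = 1} = q ^ 2 * (q ^ 2 - q + 1) := by
  have h1 := fib hF hq (fun _ => True)
  have e1 : Nat.card {v : Fin 3 → F // ∃ _hv : Cfsg.hermForm 3 F q v v ≠ 0, True} = Nat.card {v : Fin 3 → F // Cfsg.hermForm 3 F q v v ≠ 0} :=
    Nat.card_congr (Equiv.subtypeEquivRight (fun v => ⟨fun h => h.1, fun h => ⟨h, trivial⟩⟩))
  have e2 : Nat.card {x : ↥(Cfsg.SU 3 F q) // x ≠ 1 ∧ x * x = 1 ∧ True} = Nat.card {x : ↥(Cfsg.SU 3 F q) // x ≠ 1 ∧ x * x = 1} :=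
    Nat.card_congr (Equiv.subtypeEquivRight (fun v => ⟨fun h => ⟨h.1, h.2.1⟩, fun h => ⟨h.1, h.2, trivial⟩⟩))
  rw [e1, e2, card_ni hF] at h1
  exact (Nat.eq_of_mul_eq_mul_right (q2_pos hF) h1).symm

theorem comm_ne (hF : Fintype.card F = q ^ 2) (hq : Odd q) {v w : Fin 3 → F} (hv : Cfsg.hermForm 3 F q v v ≠ 0) (hw : Cfsg.hermForm 3 F q w w ≠ 0) :
    (rv hF w hw ≠ rv hF v hv ∧ Commute (rv hF v hv) (rv hF w hw)) ↔ Cfsg.hermForm 3 F q w v = 0 := by
  rw [rv_comm hF hq]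
  constructor
  · rintro ⟨h1, h2 | ⟨c, hc⟩⟩
    · exact h2
    · exfalso
      apply h1
      subst hc
      apply rv_smul
      rintro rfl
      apply hw
      rw [herm_smul_left, zero_mul]
  · intro h
    refine ⟨fun h1 => ?_, Or.inl h⟩
    obtain ⟨c, hc⟩ := rv_eq (hw := hw) hF hq h1.symm
    rw [hc, herm_smul_left] at h
    rcases mul_eq_zero.mp h with h2 | h2
    · apply ne_of_h hw
      rw [hc, h2, zero_smul]
    · exact hv h2

/-- number of involutions commuting with a given one -/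
theorem card_comm (hF : Fintype.card F = q ^ 2) (hq : Odd q) (t : ↥(Cfsg.SU 3 F q)) (ht : t ≠ 1) (ht2 : t * t = 1) :
    Nat.card {x : ↥(Cfsg.SU 3 F q) // x ≠ 1 ∧ x * x = 1 ∧ x ≠ t ∧ Commute t x} = q * (q - 1) := by
  obtain ⟨v, hv, rfl⟩ := exists_rv hF hq t ht ht2
  have h1 := fib hF hq (fun x => x ≠ rv hF v hv ∧ Commute (rv hF v hv) x)
  have e1 : Nat.card {w : Fin 3 → F // ∃ hw : Cfsg.hermForm 3 F q w w ≠ 0, rv hF w hw ≠ rv hF v hv ∧ Commute (rv hF v hv) (rv hF w hw)} =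
      Nat.card {x : Fin 3 → F // Cfsg.hermForm 3 F q x x ≠ 0 ∧ Cfsg.hermForm 3 F q x v = 0} := by
    apply Nat.card_congr
    apply Equiv.subtypeEquivRight
    intro w
    constructor
    · rintro ⟨hw, h⟩
      exact ⟨hw, (comm_ne hF hq hv hw).mp h⟩
    · rintro ⟨hw, h⟩
      exact ⟨hw, (comm_ne hF hq hv hw).mpr h⟩
  rw [e1, (card_iso_perp hF hv).2] at h1
  exact (Nat.eq_of_mul_eq_mul_right (q2_pos hF) h1).symm

/-- order of the centralizer -/
theorem card_cent (hF : Fintype.card F = q ^ 2) (hq : Odd q) (t : ↥(Cfsg.SU 3 F q)) (ht : t ≠ 1) (ht2 : t * t = 1) :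
    Nat.card ↥(Subgroup.centralizer ({t} : Set ↥(Cfsg.SU 3 F q))) = q * (q + 1) * (q ^ 2 - 1) := by
  have hq1 := Fld.one_lt_q hF
  have h1 := card_eq_card_orbit_mul (G := ConjAct ↥(Cfsg.SU 3 F q)) t {x : ↥(Cfsg.SU 3 F q) | x ≠ 1 ∧ x * x = 1} (by
    intro y
    constructor
    · rintro ⟨hy, hy2⟩
      obtain ⟨g, hg⟩ := isConj_iff.mp (all_conj hF hq t y ht ht2 hy hy2)
      exact ⟨ConjAct.toConjAct g, by rw [ConjAct.toConjAct_smul]; exact hg⟩
    · rintro ⟨g, rfl⟩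
      obtain ⟨g, rfl⟩ := ConjAct.toConjAct.surjective g
      rw [ConjAct.toConjAct_smul]
      constructor
      · intro h
        apply ht
        have : t = g⁻¹ * (g * t * g⁻¹) * g := by group
        rw [this, h]; group
      · have : g * t * g⁻¹ * (g * t * g⁻¹) = g * (t * t) * g⁻¹ := by group
        rw [this, ht2]; group)
  have h2 : Nat.card (MulAction.stabilizer (ConjAct ↥(Cfsg.SU 3 F q)) t) = Nat.card ↥(Subgroup.centralizer ({t} : Set ↥(Cfsg.SU 3 F q))) := by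
    rw [Subgroup.nat_card_centralizer_nat_card_stabilizer]
  have h3 : Nat.card (ConjAct ↥(Cfsg.SU 3 F q)) = Nat.card ↥(Cfsg.SU 3 F q) := rfl
  have h4 : Nat.card ↥{x : ↥(Cfsg.SU 3 F q) | x ≠ 1 ∧ x * x = 1} = q ^ 2 * (q ^ 2 - q + 1) := card_inv hF hq
  have h5 := card_SU_mul hF (n := 3) (by norm_num)
  rw [card_GU hF] at h5
  rw [h2, h3, h4] at h1
  have h6 : guOrd q 3 = q ^ 3 * ((q + 1) * ((q ^ 2 - 1) * (q ^ 3 + 1))) := by
    rw [guOrd, Finset.prod_range_succ, Finset.prod_range_succ, Finset.prod_range_one, if_pos (by decide), if_neg (by decide), if_pos (by decide)]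
    change q ^ 3 * ((q ^ 1 + 1) * (q ^ 2 - 1) * (q ^ 3 + 1)) = _
    rw [pow_one]
    ring
  rw [h6, h1] at h5
  obtain ⟨k, rfl⟩ : ∃ k, q = k + 2 := ⟨q - 2, by omega⟩
  have e1 : (k + 2) ^ 2 - 1 = k ^ 2 + 4 * k + 3 := by
    have : (k + 2) ^ 2 = k ^ 2 + 4 * k + 3 + 1 := by ring
    omega
  have e2 : (k + 2) ^ 2 - (k + 2) + 1 = k ^ 2 + 3 * k + 3 := by
    have : (k + 2) ^ 2 = k ^ 2 + 3 * k + 2 + (k + 2) := by ring
    omega
  rw [e1, e2] at h5
  rw [e1]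
  have hpos : 0 < (k + 2 + 1) * ((k + 2) ^ 2 * (k ^ 2 + 3 * k + 3)) := by positivity
  apply Nat.eq_of_mul_eq_mul_left hpos
  calc _ = (k + 2 + 1) * ((k + 2) ^ 2 * (k ^ 2 + 3 * k + 3) * Nat.card ↥(Subgroup.centralizer ({t} : Set ↥(Cfsg.SU 3 F (k + 2))))) := by ring
    _ = _ := by rw [h5]; ring

theorem unique_third (hF : Fintype.card F = q ^ 2) (hq : Odd q) (t : ↥(Cfsg.SU 3 F q)) (ht : t ≠ 1) (ht2 : t * t = 1)
    (x : ↥(Cfsg.SU 3 F q)) (hx : x ≠ 1) (hx2 : x * x = 1) (hxt : x ≠ t) (hc : Commute t x) :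
    Nat.card {y : ↥(Cfsg.SU 3 F q) // y ≠ 1 ∧ y * y = 1 ∧ y ≠ t ∧ y ≠ x ∧ Commute t y ∧ Commute x y} = 1 := by
  obtain ⟨v, hv, rfl⟩ := exists_rv hF hq t ht ht2
  obtain ⟨w, hw, rfl⟩ := exists_rv hF hq x hx hx2
  have hwv := (comm_ne hF hq hv hw).mp ⟨hxt, hc⟩
  have hvw : Cfsg.hermForm 3 F q v w = 0 := by
    rw [← herm_swap hF, hwv, zero_pow (by have := Fld.one_lt_q hF; omega)]
  have hwv' : ∀ c : F, w ≠ c • v := by
    rintro c rfl
    apply hw
    rw [herm_smul_left, hvw, mul_zero]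
  obtain ⟨u, hu1, hu2, hu⟩ := claimA hF (v := v) (w := w) (by
    rw [hwv, mul_zero]
    exact mul_ne_zero hv hw)
  rw [Nat.card_eq_one_iff_unique]
  constructor
  · constructor
    rintro ⟨y, hy, hy2, hyt, hyx, hc1, hc2⟩ ⟨z, hz, hz2, hzt, hzx, hc3, hc4⟩
    obtain ⟨a, ha, rfl⟩ := exists_rv hF hq y hy hy2
    obtain ⟨b, hb, rfl⟩ := exists_rv hF hq z hz hz2
    have h1 := (comm_ne hF hq hv ha).mp ⟨hyt, hc1⟩
    have h2 := (comm_ne hF hq hw ha).mp ⟨hyx, hc2⟩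
    have h3 := (comm_ne hF hq hv hb).mp ⟨hzt, hc3⟩
    have h4 := (comm_ne hF hq hw hb).mp ⟨hzx, hc4⟩
    obtain ⟨g, hg, hg'⟩ := finrank_eq_one_iff'.mp (fr2 hF (ne_of_h hv) hwv')
    obtain ⟨c, hc⟩ := hg' ⟨a, (mem_orth2 hF v w a).mpr ⟨h1, h2⟩⟩
    obtain ⟨d, hd⟩ := hg' ⟨b, (mem_orth2 hF v w b).mpr ⟨h3, h4⟩⟩
    have hc' : c • (g : Fin 3 → F) = a := congrArg Subtype.val hc
    have hd' : d • (g : Fin 3 → F) = b := congrArg Subtype.val hd
    have hc0 : c ≠ 0 := by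
      rintro rfl
      rw [zero_smul] at hc'
      exact ne_of_h ha hc'.symm
    have hd0 : d ≠ 0 := by
      rintro rfl
      rw [zero_smul] at hd'
      exact ne_of_h hb hd'.symm
    apply Subtype.ext
    have hb' : b = (d * c⁻¹) • a := by
      rw [← hd', ← hc', smul_smul, mul_assoc, inv_mul_cancel₀ hc0, mul_one]
    subst hb'
    exact (rv_smul hF a ha _ (mul_ne_zero hd0 (inv_ne_zero hc0)) hb).symm
  · obtain ⟨h1, h2⟩ := (comm_ne hF hq hv hu).mpr hu1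
    obtain ⟨h3, h4⟩ := (comm_ne hF hq hw hu).mpr hu2
    exact ⟨⟨rv hF u hu, rv_ne hF hq u hu, rv_sq hF u hu, h1, h3, h2, h4⟩⟩

theorem card_deg (hF : Fintype.card F = q ^ 2) (hq : Odd q) (t : ↥(Cfsg.SU 3 F q)) (ht : t ≠ 1) (ht2 : t * t = 1) :
    Nat.card {x : ↥(Cfsg.SU 3 F q) // x ≠ 1 ∧ x * x = 1 ∧ ¬ Commute t x ∧
        ∀ y : ↥(Cfsg.SU 3 F q), y ≠ 1 → y * y = 1 → ¬ (Commute t y ∧ Commute y x)} = (q + 1) * (q ^ 2 - 1) := by
  classical
  obtain ⟨v, hv, rfl⟩ := exists_rv hF hq t ht ht2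
  have hq1 := Fld.one_lt_q hF
  have h1 := fib hF hq (fun x => ¬ Commute (rv hF v hv) x ∧ ∀ y : ↥(Cfsg.SU 3 F q), y ≠ 1 → y * y = 1 → ¬ (Commute (rv hF v hv) y ∧ Commute y x))
  have h0 : Nat.card {u : {x : Fin 3 → F // Cfsg.hermForm 3 F q x v = 0 ∧ Cfsg.hermForm 3 F q x x = 0} // u.1 ≠ 0} = (q ^ 2 - 1) * (q + 1) := by
    have h2 := (card_iso_perp hF hv).1
    have e0 : ∀ y : Fin 3 → F, Cfsg.hermForm 3 F q 0 y = 0 := fun y => by rw [← zero_smul F (0 : Fin 3 → F), herm_smul_left, zero_mul]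
    haveI := Fintype.ofFinite {x : Fin 3 → F // Cfsg.hermForm 3 F q x v = 0 ∧ Cfsg.hermForm 3 F q x x = 0}
    have h3 : Nat.card {u : {x : Fin 3 → F // Cfsg.hermForm 3 F q x v = 0 ∧ Cfsg.hermForm 3 F q x x = 0} // u ≠ ⟨0, e0 v, e0 0⟩} + 1 =
        Nat.card {x : Fin 3 → F // Cfsg.hermForm 3 F q x v = 0 ∧ Cfsg.hermForm 3 F q x x = 0} := by
      rw [Nat.card_eq_fintype_card, Nat.card_eq_fintype_card, Fintype.card_subtype_compl, Fintype.card_subtype_eq]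
      have : 0 < Fintype.card {x : Fin 3 → F // Cfsg.hermForm 3 F q x v = 0 ∧ Cfsg.hermForm 3 F q x x = 0} := Fintype.card_pos_iff.mpr ⟨⟨0, e0 v, e0 0⟩⟩
      omega
    rw [h2] at h3
    have h4 : Nat.card {u : {x : Fin 3 → F // Cfsg.hermForm 3 F q x v = 0 ∧ Cfsg.hermForm 3 F q x x = 0} // u.1 ≠ 0} =
        Nat.card {u : {x : Fin 3 → F // Cfsg.hermForm 3 F q x v = 0 ∧ Cfsg.hermForm 3 F q x x = 0} // u ≠ ⟨0, e0 v, e0 0⟩} := by
      apply Nat.card_congr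
      apply Equiv.subtypeEquivRight
      intro u
      constructor
      · intro h h'
        exact h (congrArg Subtype.val h')
      · intro h h'
        exact h (Subtype.ext h')
    omega
  have hu : Nat.card Fˣ = q ^ 2 - 1 := by
    rw [Nat.card_eq_fintype_card, Fintype.card_units, hF]
  have e1 : Nat.card {w : Fin 3 → F // ∃ hw : Cfsg.hermForm 3 F q w w ≠ 0, ¬ Commute (rv hF v hv) (rv hF w hw) ∧
      ∀ y : ↥(Cfsg.SU 3 F q), y ≠ 1 → y * y = 1 → ¬ (Commute (rv hF v hv) y ∧ Commute y (rv hF w hw))} = (q ^ 2 - 1) * ((q ^ 2 - 1) * (q + 1)) := by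
    rw [← h0]
    nth_rw 1 [← hu]
    rw [← Nat.card_prod]
    symm
    apply Nat.card_congr
    -- facts on `c v + u`
    have hfact : ∀ (c : F) (u : Fin 3 → F), Cfsg.hermForm 3 F q u v = 0 → Cfsg.hermForm 3 F q u u = 0 →
        Cfsg.hermForm 3 F q (c • v + u) (c • v + u) = c * c ^ q * Cfsg.hermForm 3 F q v v ∧ Cfsg.hermForm 3 F q (c • v + u) v = c * Cfsg.hermForm 3 F q v v ∧
        Cfsg.hermForm 3 F q v (c • v + u) = c ^ q * Cfsg.hermForm 3 F q v v := by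
      intro c u h1 h2
      have h1' : Cfsg.hermForm 3 F q v u = 0 := by rw [← herm_swap hF, h1, zero_pow (by omega)]
      refine ⟨?_, ?_, ?_⟩
      · simp only [herm_add_left, herm_add_right hF, herm_smul_left, herm_smul_right, h1, h1', h2, mul_zero, add_zero]
        ring
      · simp only [herm_add_left, herm_smul_left, h1, add_zero]
      · simp only [herm_add_right hF, herm_smul_right, h1', add_zero]
    refine Equiv.ofBijective (fun cu => ⟨(cu.1 : F) • v + cu.2.1.1, ?_⟩) ⟨?_, ?_⟩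
    · obtain ⟨c, ⟨⟨u, hu1, hu2⟩, hu0⟩⟩ := cu
      simp only at hu0 ⊢
      obtain ⟨f1, f2, f3⟩ := hfact c u hu1 hu2
      have hcq : (c : F) ^ q ≠ 0 := pow_ne_zero q c.ne_zero
      have hw : Cfsg.hermForm 3 F q ((c : F) • v + u) ((c : F) • v + u) ≠ 0 := by
        rw [f1]
        exact mul_ne_zero (mul_ne_zero c.ne_zero hcq) hv
      have hns : ∀ d : F, (c : F) • v + u ≠ d • v := by
        intro d h
        apply hu0
        have h3 : u = (d - c) • v := by rw [sub_smul, ← h]; abel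
        rw [h3, herm_smul_left] at hu1
        have h4 : d - c = 0 := (mul_eq_zero.mp hu1).resolve_right hv
        rw [h3, h4, zero_smul]
      refine ⟨hw, ?_, ?_⟩
      · rw [rv_comm hF hq, f2]
        rintro (h | ⟨d, hd⟩)
        · exact (mul_ne_zero c.ne_zero hv) h
        · exact hns d hd
      · rintro y hy hy2 ⟨hc1, hc2⟩
        obtain ⟨z, hz, rfl⟩ := exists_rv hF hq y hy hy2
        have hzv : Cfsg.hermForm 3 F q z v = 0 := by
          rcases (rv_comm hF hq hv hz).mp hc1 with h | ⟨d, rfl⟩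
          · exact h
          · exfalso
            rcases (rv_comm hF hq hz hw).mp hc2 with h | ⟨d', hd'⟩
            · rw [herm_smul_right, f2] at h
              rcases mul_eq_zero.mp h with h | h
              · apply hz
                rw [herm_smul_right, h, zero_mul]
              · exact (mul_ne_zero c.ne_zero hv) h
            · exact hns (d' * d) (by rw [hd', smul_smul])
        have hzw : Cfsg.hermForm 3 F q z ((c : F) • v + u) = 0 := by
          rcases (rv_comm hF hq hz hw).mp hc2 with h | ⟨d, hd⟩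
          · rw [← herm_swap hF, h, zero_pow (by omega)]
          · exfalso
            have h3 := f2
            rw [hd, herm_smul_left, hzv, mul_zero] at h3
            exact (mul_ne_zero c.ne_zero hv) h3.symm
        exact hz (claimB hF hv hns (by rw [f1, f2, f3]; ring) hzv hzw)
    · rintro ⟨c, ⟨⟨u, hu1, hu2⟩, hu0⟩⟩ ⟨c', ⟨⟨u', hu1', hu2'⟩, hu0'⟩⟩ h
      have h1 : (c : F) • v + u = (c' : F) • v + u' := congrArg Subtype.val h
      have h2 := congrArg (fun z => Cfsg.hermForm 3 F q z v) h1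
      simp only [herm_add_left, herm_smul_left, hu1, hu1', add_zero] at h2
      have h3 : (c : F) = c' := mul_right_cancel₀ hv h2
      have h4 : c = c' := Units.ext h3
      subst h4
      have h5 : u = u' := add_left_cancel h1
      subst h5
      rfl
    · rintro ⟨w, hw, hw1, hw2⟩
      have hns : ∀ d : F, w ≠ d • v := fun d hd => hw1 ((rv_comm hF hq hv hw).mpr (Or.inr ⟨d, hd⟩))
      have hwv : Cfsg.hermForm 3 F q w v ≠ 0 := fun h => hw1 ((rv_comm hF hq hv hw).mpr (Or.inl h))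
      have hvw : Cfsg.hermForm 3 F q v w = Cfsg.hermForm 3 F q w v ^ q := (herm_swap hF w v).symm
      have hd : Cfsg.hermForm 3 F q v v * Cfsg.hermForm 3 F q w w = Cfsg.hermForm 3 F q v w * Cfsg.hermForm 3 F q w v := by
        by_contra hcon
        obtain ⟨u, hu1, hu2, hu3⟩ := claimA hF hcon
        refine hw2 (rv hF u hu3) (rv_ne hF hq u hu3) (rv_sq hF u hu3) ⟨(rv_comm hF hq hv hu3).mpr (Or.inl hu1), ?_⟩
        exact ((rv_comm hF hq hw hu3).mpr (Or.inl hu2)).symm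
      obtain ⟨c, hc⟩ : ∃ c, c = Cfsg.hermForm 3 F q w v / Cfsg.hermForm 3 F q v v := ⟨_, rfl⟩
      have hc0 : c ≠ 0 := by rw [hc]; exact div_ne_zero hwv hv
      have hcv : c * Cfsg.hermForm 3 F q v v = Cfsg.hermForm 3 F q w v := by rw [hc, div_mul_cancel₀ _ hv]
      obtain ⟨u, hu⟩ : ∃ u, u = w + (-c) • v := ⟨_, rfl⟩
      have hu1 : Cfsg.hermForm 3 F q u v = 0 := by
        rw [hu, herm_add_left, herm_smul_left]
        linear_combination -hcv
      have hu2 : Cfsg.hermForm 3 F q u u = 0 := by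
        nth_rw 2 [hu]
        rw [herm_add_right hF, herm_smul_right, hu1, mul_zero, add_zero, hu, herm_add_left, herm_smul_left]
        have h3 : Cfsg.hermForm 3 F q v v * (Cfsg.hermForm 3 F q w w + -c * Cfsg.hermForm 3 F q v w) = 0 := by
          linear_combination hd - Cfsg.hermForm 3 F q v w * hcv
        exact (mul_eq_zero.mp h3).resolve_left hv
      have hu0 : u ≠ 0 := by
        intro h
        rw [hu, neg_smul, ← sub_eq_add_neg, sub_eq_zero] at h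
        exact hns c h
      refine ⟨(Units.mk0 c hc0, ⟨⟨u, hu1, hu2⟩, hu0⟩), ?_⟩
      apply Subtype.ext
      change c • v + u = w
      rw [hu, neg_smul]; abel
  rw [e1] at h1
  have h2 : (q ^ 2 - 1) * ((q ^ 2 - 1) * (q + 1)) = ((q + 1) * (q ^ 2 - 1)) * (q ^ 2 - 1) := by ring
  rw [h2] at h1
  exact (Nat.eq_of_mul_eq_mul_right (q2_pos hF) h1).symm

theorem card_mid (hF : Fintype.card F = q ^ 2) (hq : Odd q) (t : ↥(Cfsg.SU 3 F q)) (ht : t ≠ 1) (ht2 : t * t = 1) :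
    Nat.card {x : ↥(Cfsg.SU 3 F q) // x ≠ 1 ∧ x * x = 1 ∧ ¬ Commute t x ∧
        ∃ y : ↥(Cfsg.SU 3 F q), y ≠ 1 ∧ y * y = 1 ∧ Commute t y ∧ Commute y x} = q * (q - 2) * (q ^ 2 - 1) := by
  classical
  have hq1 := Fld.one_lt_q hF
  have h1 := card_inv hF hq
  have h2 := card_comm hF hq t ht ht2
  have h3 := card_deg hF hq t ht ht2
  haveI := Fintype.ofFinite ↥(Cfsg.SU 3 F q)
  have key : Nat.card {x : ↥(Cfsg.SU 3 F q) // x ≠ 1 ∧ x * x = 1} =
      1 + Nat.card {x : ↥(Cfsg.SU 3 F q) // x ≠ 1 ∧ x * x = 1 ∧ x ≠ t ∧ Commute t x} +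
      Nat.card {x : ↥(Cfsg.SU 3 F q) // x ≠ 1 ∧ x * x = 1 ∧ ¬ Commute t x ∧ ∃ y : ↥(Cfsg.SU 3 F q), y ≠ 1 ∧ y * y = 1 ∧ Commute t y ∧ Commute y x} +
      Nat.card {x : ↥(Cfsg.SU 3 F q) // x ≠ 1 ∧ x * x = 1 ∧ ¬ Commute t x ∧
        ∀ y : ↥(Cfsg.SU 3 F q), y ≠ 1 → y * y = 1 → ¬ (Commute t y ∧ Commute y x)} := by
    simp only [Nat.card_eq_fintype_card, Fintype.card_subtype]
    have e1 : (Finset.univ.filter (fun x : ↥(Cfsg.SU 3 F q) => x ≠ 1 ∧ x * x = 1)) =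
        (({t} ∪ Finset.univ.filter (fun x : ↥(Cfsg.SU 3 F q) => x ≠ 1 ∧ x * x = 1 ∧ x ≠ t ∧ Commute t x)) ∪
        Finset.univ.filter (fun x : ↥(Cfsg.SU 3 F q) => x ≠ 1 ∧ x * x = 1 ∧ ¬ Commute t x ∧ ∃ y : ↥(Cfsg.SU 3 F q), y ≠ 1 ∧ y * y = 1 ∧ Commute t y ∧ Commute y x)) ∪
        Finset.univ.filter (fun x : ↥(Cfsg.SU 3 F q) => x ≠ 1 ∧ x * x = 1 ∧ ¬ Commute t x ∧
        ∀ y : ↥(Cfsg.SU 3 F q), y ≠ 1 → y * y = 1 → ¬ (Commute t y ∧ Commute y x)) := by
      ext x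
      simp only [Finset.mem_filter, Finset.mem_univ, true_and, Finset.mem_union, Finset.mem_singleton]
      constructor
      · rintro ⟨hx, hx2⟩
        by_cases hc : Commute t x
        · by_cases hxt : x = t
          · exact Or.inl (Or.inl (Or.inl hxt))
          · exact Or.inl (Or.inl (Or.inr ⟨hx, hx2, hxt, hc⟩))
        · by_cases hy : ∃ y : ↥(Cfsg.SU 3 F q), y ≠ 1 ∧ y * y = 1 ∧ Commute t y ∧ Commute y x
          · exact Or.inl (Or.inr ⟨hx, hx2, hc, hy⟩)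
          · right
            refine ⟨hx, hx2, hc, ?_⟩
            intro y hy1 hy2 hy3
            exact hy ⟨y, hy1, hy2, hy3⟩
      · rintro (((rfl | ⟨h1, h2, _⟩) | ⟨h1, h2, _⟩) | ⟨h1, h2, _⟩)
        · exact ⟨ht, ht2⟩
        · exact ⟨h1, h2⟩
        · exact ⟨h1, h2⟩
        · exact ⟨h1, h2⟩
    rw [e1, Finset.card_union_of_disjoint, Finset.card_union_of_disjoint, Finset.card_union_of_disjoint, Finset.card_singleton]
    · rw [Finset.disjoint_left]
      intro x hx hx'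
      rw [Finset.mem_singleton] at hx
      simp only [Finset.mem_filter] at hx'
      exact hx'.2.2.2.1 hx
    · rw [Finset.disjoint_left]
      intro x hx hx'
      simp only [Finset.mem_filter, Finset.mem_union, Finset.mem_singleton] at hx hx'
      rcases hx with rfl | hx
      · exact hx'.2.2.2.1 (Commute.refl _)
      · exact hx'.2.2.2.1 hx.2.2.2.2
    · rw [Finset.disjoint_left]
      intro x hx hx'
      simp only [Finset.mem_filter, Finset.mem_union, Finset.mem_singleton] at hx hx'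
      rcases hx with (rfl | hx) | hx
      · exact hx'.2.2.2.1 (Commute.refl _)
      · exact hx'.2.2.2.1 hx.2.2.2.2
      · obtain ⟨y, hy1, hy2, hy3⟩ := hx.2.2.2.2
        exact hx'.2.2.2.2 y hy1 hy2 hy3
  rw [h1, h2, h3] at key
  have hq3 : 3 ≤ q := by
    obtain ⟨k, hk⟩ := hq
    omega
  obtain ⟨k, rfl⟩ : ∃ k, q = k + 3 := ⟨q - 3, by omega⟩
  have e1 : (k + 3) ^ 2 - 1 = k ^ 2 + 6 * k + 8 := by
    have : (k + 3) ^ 2 = k ^ 2 + 6 * k + 8 + 1 := by ring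
    omega
  have e2 : (k + 3) ^ 2 - (k + 3) + 1 = k ^ 2 + 5 * k + 7 := by
    have : (k + 3) ^ 2 = k ^ 2 + 5 * k + 6 + (k + 3) := by ring
    omega
  rw [e1, e2, show k + 3 - 1 = k + 2 by omega] at key
  rw [e1, show k + 3 - 2 = k + 1 by omega]
  have e3 : (k + 3) ^ 2 * (k ^ 2 + 5 * k + 7) = 1 + (k + 3) * (k + 2) + (k + 3) * (k + 1) * (k ^ 2 + 6 * k + 8) + (k + 3 + 1) * (k ^ 2 + 6 * k + 8) := by ring
  omega

theorem diam (hF : Fintype.card F = q ^ 2) (hq : Odd q) (t : ↥(Cfsg.SU 3 F q)) (ht : t ≠ 1) (ht2 : t * t = 1)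
    (x : ↥(Cfsg.SU 3 F q)) (hx : x ≠ 1) (hx2 : x * x = 1) :
      ∃ y z : ↥(Cfsg.SU 3 F q), y ≠ 1 ∧ y * y = 1 ∧ z ≠ 1 ∧ z * z = 1 ∧
        Commute t y ∧ Commute y z ∧ Commute z x := by
  have hq1 := Fld.one_lt_q hF
  have h2 := two_ne hF hq
  obtain ⟨v, hv, rfl⟩ := exists_rv hF hq t ht ht2
  obtain ⟨w, hw, rfl⟩ := exists_rv hF hq x hx hx2
  by_cases hc : Commute (rv hF v hv) (rv hF w hw)
  · exact ⟨rv hF v hv, rv hF w hw, ht, ht2, hx, hx2, Commute.refl _, hc, Commute.refl _⟩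
  have hns : ∀ d : F, w ≠ d • v := fun d hd => hc ((rv_comm hF hq hv hw).mpr (Or.inr ⟨d, hd⟩))
  have hwv : Cfsg.hermForm 3 F q w v ≠ 0 := fun h => hc ((rv_comm hF hq hv hw).mpr (Or.inl h))
  -- it suffices to find u
  have hsuff : ∀ u : Fin 3 → F, Cfsg.hermForm 3 F q u v = 0 → Cfsg.hermForm 3 F q u u ≠ 0 →
      Cfsg.hermForm 3 F q u u * Cfsg.hermForm 3 F q w w ≠ Cfsg.hermForm 3 F q u w * Cfsg.hermForm 3 F q w u →
      ∃ y z : ↥(Cfsg.SU 3 F q), y ≠ 1 ∧ y * y = 1 ∧ z ≠ 1 ∧ z * z = 1 ∧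
        Commute (rv hF v hv) y ∧ Commute y z ∧ Commute z (rv hF w hw) := by
    intro u hu1 hu2 hu3
    obtain ⟨z, hz1, hz2, hz3⟩ := claimA hF hu3
    exact ⟨rv hF u hu2, rv hF z hz3, rv_ne hF hq u hu2, rv_sq hF u hu2, rv_ne hF hq z hz3, rv_sq hF z hz3,
      (rv_comm hF hq hv hu2).mpr (Or.inl hu1), (rv_comm hF hq hu2 hz3).mpr (Or.inl hz1), ((rv_comm hF hq hw hz3).mpr (Or.inl hz2)).symm⟩
  by_cases hd : Cfsg.hermForm 3 F q v v * Cfsg.hermForm 3 F q w w = Cfsg.hermForm 3 F q v w * Cfsg.hermForm 3 F q w v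
  swap
  · obtain ⟨u, hu1, hu2, hu3⟩ := claimA hF hd
    exact ⟨rv hF u hu3, rv hF u hu3, rv_ne hF hq u hu3, rv_sq hF u hu3, rv_ne hF hq u hu3, rv_sq hF u hu3,
      (rv_comm hF hq hv hu3).mpr (Or.inl hu1), Commute.refl _, ((rv_comm hF hq hw hu3).mpr (Or.inl hu2)).symm⟩
  obtain ⟨c, hc'⟩ : ∃ c, c = Cfsg.hermForm 3 F q w v / Cfsg.hermForm 3 F q v v := ⟨_, rfl⟩
  have hc0 : c ≠ 0 := by rw [hc']; exact div_ne_zero hwv hv
  have hcv : c * Cfsg.hermForm 3 F q v v = Cfsg.hermForm 3 F q w v := by rw [hc', div_mul_cancel₀ _ hv]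
  obtain ⟨e, he⟩ : ∃ u, u = w + (-c) • v := ⟨_, rfl⟩
  have he1 : Cfsg.hermForm 3 F q e v = 0 := by
    rw [he, herm_add_left, herm_smul_left]
    linear_combination -hcv
  have he1' : Cfsg.hermForm 3 F q v e = 0 := by rw [← herm_swap hF, he1, zero_pow (by omega)]
  have he2 : Cfsg.hermForm 3 F q e e = 0 := by
    nth_rw 2 [he]
    rw [herm_add_right hF, herm_smul_right, he1, mul_zero, add_zero, he, herm_add_left, herm_smul_left]
    have h3 : Cfsg.hermForm 3 F q v v * (Cfsg.hermForm 3 F q w w + -c * Cfsg.hermForm 3 F q v w) = 0 := by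
      linear_combination hd - Cfsg.hermForm 3 F q v w * hcv
    exact (mul_eq_zero.mp h3).resolve_left hv
  have he0 : e ≠ 0 := by
    intro h
    rw [he, neg_smul, ← sub_eq_add_neg, sub_eq_zero] at h
    exact hns c h
  -- partner of e in the orthogonal complement of v
  obtain ⟨y, hy⟩ : ∃ y, Cfsg.hermForm 3 F q y e ≠ 0 := by
    by_contra hcon
    push Not at hcon
    exact he0 ((Cfsg.Agent.H15.FM.hermFrm' hF 3).nondeg_right e hcon)
  obtain ⟨f, hf⟩ : ∃ f, f = (Cfsg.hermForm 3 F q y e)⁻¹ • (y + (-(Cfsg.hermForm 3 F q y v / Cfsg.hermForm 3 F q v v)) • v) := ⟨_, rfl⟩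
  have hf1 : Cfsg.hermForm 3 F q f v = 0 := by
    rw [hf, herm_smul_left, herm_add_left, herm_smul_left]
    field_simp
    ring
  have hf2 : Cfsg.hermForm 3 F q f e = 1 := by
    rw [hf, herm_smul_left, herm_add_left, herm_smul_left, he1', mul_zero, add_zero, inv_mul_cancel₀ hy]
  have hf3 : Cfsg.hermForm 3 F q e f = 1 := by rw [← herm_swap hF, hf2, one_pow]
  have hff : Cfsg.hermForm 3 F q f f ^ q = Cfsg.hermForm 3 F q f f := herm_swap hF f f
  have hww : Cfsg.hermForm 3 F q w w ^ q = Cfsg.hermForm 3 F q w w := herm_swap hF w w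
  obtain ⟨a, ha⟩ : ∃ a, a = (2 / Cfsg.hermForm 3 F q w w - Cfsg.hermForm 3 F q f f) / 2 := ⟨_, rfl⟩
  have haq : a ^ q = a := by
    rw [ha, div_pow, two_pow hF]
    congr 1
    rw [← Fld.frob_apply hF, map_sub, map_div₀, Fld.frob_apply, Fld.frob_apply, Fld.frob_apply, hff, hww, two_pow hF]
  have hw' : w = e + c • v := by rw [he, neg_smul]; abel
  have huu : Cfsg.hermForm 3 F q (a • e + f) (a • e + f) = 2 / Cfsg.hermForm 3 F q w w := by
    simp only [herm_add_left, herm_add_right hF, herm_smul_left, herm_smul_right, he2, hf2, hf3, haq]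
    rw [ha]
    field_simp
    ring
  have huw : Cfsg.hermForm 3 F q (a • e + f) w = 1 := by
    rw [hw']
    simp only [herm_add_left, herm_add_right hF, herm_smul_left, herm_smul_right, he1, he2, hf1, hf2]
    ring
  have hwu : Cfsg.hermForm 3 F q w (a • e + f) = 1 := by rw [← herm_swap hF, huw, one_pow]
  apply hsuff (a • e + f)
  · simp only [herm_add_left, herm_smul_left, he1, hf1]
    ring
  · rw [huu]
    exact div_ne_zero h2 hw
  · rw [huu, huw, hwu, div_mul_cancel₀ _ hw, mul_one]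
    intro h
    have : (1 : F) = 0 := by linear_combination h
    exact one_ne_zero this

end Cfsg.Agent.H15.SI
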