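import Cfsg.Agent.H15_SP2

set_option autoImplicit false
set_option maxHeartbeats 1000000

/-! `SL_n(q)`, `q ≡ 3 mod 4`. -/

namespace Cfsg.Agent.H15.SP

open Cfsg Matrix Cfsg.Agent.H15.EA Cfsg.Agent.H15.GG

open scoped commutatorElement

variable {F : Type*} [Field F] [Fintype F] {q : ℕ}

/-- the special part of `Dh` inside `GL₂` -/
noncomputable def DS (F : Type*) [Field F] : Subgroup (GL (Fin 2) F) := ((Dh F).comap (Matrix.SpecialLinearGroup.toGL : Matrix.SpecialLinearGroup (Fin 2) F →* GL (Fin 2) F)).map Matrix.SpecialLinearGroup.toGL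

omit [Fintype F] in
theorem DS_le : DS F ≤ Dh F := Subgroup.map_comap_le _ _

omit [Fintype F] in
theorem mem_DS {g : GL (Fin 2) F} (hg : g ∈ Dh F) (hd : Matrix.GeneralLinearGroup.det g = 1) : g ∈ DS F := by
  have h1 : (g : Matrix (Fin 2) (Fin 2) F).det = 1 := congrArg Units.val hd
  refine ⟨⟨g, h1⟩, ?_, Units.ext rfl⟩
  have e : Matrix.SpecialLinearGroup.toGL (⟨g, h1⟩ : Matrix.SpecialLinearGroup (Fin 2) F) = g := Units.ext rfl
  show Matrix.SpecialLinearGroup.toGL (⟨g, h1⟩ : Matrix.SpecialLinearGroup (Fin 2) F) ∈ Dh F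
  rw [e]; exact hg

theorem DS_good (hF : Fintype.card F = q) (hodd : Odd q) (hq3 : 3 ≤ q) : Good (DS F) := (Dh_facts hF hodd hq3).2.map _

theorem Dh_good (hF : Fintype.card F = q) (hodd : Odd q) (hq3 : 3 ≤ q) (hq : 4 ∣ Fintype.card F + 1) : Good (Dh F) := by
  refine Good.of_closure (S := (DS F : Set (GL (Fin 2) F)) ∪ {wr F}) ?_ ?_ ?_
  · intro g hg
    rcases Dh_det hq hg with h | h
    · exact Subgroup.subset_closure (Or.inl (mem_DS hg h))
    · have h1 : g * wr F ∈ DS F := by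
        apply mem_DS ((Dh F).mul_mem hg wr_mem)
        rw [map_mul, h, wr_det, neg_mul_neg, mul_one]
      have h2 := Subgroup.mul_mem _ (Subgroup.subset_closure (Or.inl h1) : g * wr F ∈ Subgroup.closure ((DS F : Set (GL (Fin 2) F)) ∪ {wr F}))
        (Subgroup.inv_mem _ (Subgroup.subset_closure (Or.inr rfl) : wr F ∈ Subgroup.closure ((DS F : Set (GL (Fin 2) F)) ∪ {wr F})))
      rwa [mul_inv_cancel_right] at h2
  · rintro g (hg | rfl)
    · exact DS_le hg
    · exact wr_mem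
  · rintro g (hg | rfl)
    · exact Subgroup.commutator_mono DS_le DS_le (DS_good hF hodd hq3 g hg)
    · rw [pow_two, wr_sq]; exact Subgroup.one_mem _

/-- the Sylow 2-subgroup of `GL_{2m}(q)` -/
theorem GL_even (hF : Fintype.card F = q) (hodd : Odd q) (hq3 : 3 ≤ q) (hq : 4 ∣ Fintype.card F + 1) (m : ℕ) :
    ∃ S : Subgroup (GL (Fin 2 × Fin m) F), IsPGroup 2 S ∧ 2 ^ (m * (q - 1).factorization 2 + (m * ((q + 1).factorization 2 + (q - 1).factorization 2) + (m.factorial).factorization 2)) ≤ Nat.card S ∧ Good S := by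
  classical
  let T : Sylow 2 (Equiv.Perm (Fin m)) := default
  have hTgood : Good (T : Subgroup (Equiv.Perm (Fin m))) := good_perm m T
  let A : Subgroup (GL (Fin 2 × Fin m) F) := (Subgroup.pi Set.univ fun _ : Fin m => Dh F).map (bd m)
  let B : Subgroup (GL (Fin 2 × Fin m) F) := (T : Subgroup (Equiv.Perm (Fin m))).map (bp F m)
  have hA : IsPGroup 2 A := (pi_p Dh_p).map _
  have hB : IsPGroup 2 B := T.isPGroup'.map _
  have hd : Disjoint A B := by
    rw [disjoint_iff, eq_bot_iff]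
    rintro x ⟨⟨f, hf, rfl⟩, ⟨σ, hσ, h⟩⟩
    have := bd_eq_bp h.symm
    rw [this, map_one] at h
    exact h.symm
  refine ⟨A ⊔ B, IsPGroup.to_sup_of_normal_left' hA hB (le_norm ?_), ?_, good_sup ((good_pi (Dh_good hF hodd hq3 hq)).map _) (hTgood.map _)⟩
  · rintro _ ⟨σ, hσ, rfl⟩ _ ⟨f, hf, rfl⟩
    refine ⟨f ∘ ⇑(σ⁻¹), fun i _ => hf (σ⁻¹ i) (Set.mem_univ _), ?_⟩
    rw [bp_bd, mul_inv_cancel_right]
  · have h1 : Nat.card (A × B) ≤ Nat.card (A ⊔ B : Subgroup (GL (Fin 2 × Fin m) F)) := by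
      refine Nat.card_le_card_of_injective (fun g => ⟨(g.1 : GL (Fin 2 × Fin m) F) * g.2, Subgroup.mul_mem_sup g.1.2 g.2.2⟩) fun x y hxy => ?_
      exact Subgroup.mul_injective_of_disjoint hd (Subtype.mk.inj hxy)
    refine le_trans ?_ h1
    have cA : Nat.card A = Nat.card (Dh F) ^ m := by
      rw [← Nat.card_congr (Subgroup.equivMapOfInjective _ _ bd_inj).toEquiv, card_pi, Nat.card_fin]
    have cB : Nat.card B = 2 ^ (m.factorial).factorization 2 := by
      rw [← Nat.card_congr (Subgroup.equivMapOfInjective _ _ bp_inj).toEquiv, T.card_eq_multiplicity, Nat.card_perm, Nat.card_fin]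
    rw [Nat.card_prod, cA, cB]
    have h2 := Nat.pow_le_pow_left (Nat.le_of_dvd Nat.card_pos (Dh_facts hF hodd hq3).1) m
    refine le_trans (le_of_eq ?_) (Nat.mul_le_mul_right _ h2)
    rw [← pow_mul, ← pow_add]
    congr 1
    ring

/-- embedding `GL_n → SL_{n+1}` -/
def extM (X : Type*) [Fintype X] [DecidableEq X] : GL X F →* Matrix (X ⊕ Unit) (X ⊕ Unit) F where
  toFun g := Matrix.fromBlocks (g : Matrix X X F) 0 0 (Matrix.diagonal fun _ => ((Matrix.GeneralLinearGroup.det g)⁻¹ : Fˣ))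
  map_one' := by
    simp
  map_mul' g h := by
    rw [Matrix.fromBlocks_multiply]
    simp [Matrix.diagonal_mul_diagonal, mul_comm]

def ext1 (X : Type*) [Fintype X] [DecidableEq X] : GL X F →* GL (X ⊕ Unit) F := (extM X).toHomUnits

omit [Fintype F] in
theorem ext1_inj {X : Type*} [Fintype X] [DecidableEq X] : Function.Injective (ext1 (F := F) X) := by
  intro g h hgh
  have h1 : Matrix.fromBlocks (g : Matrix X X F) 0 0 (Matrix.diagonal fun _ : Unit => (((Matrix.GeneralLinearGroup.det g)⁻¹ : Fˣ) : F)) =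
    Matrix.fromBlocks (h : Matrix X X F) 0 0 (Matrix.diagonal fun _ : Unit => (((Matrix.GeneralLinearGroup.det h)⁻¹ : Fˣ) : F)) :=
    congrArg (fun t : GL (X ⊕ Unit) F => (t : Matrix (X ⊕ Unit) (X ⊕ Unit) F)) hgh
  rw [Matrix.fromBlocks_inj] at h1
  exact Units.ext h1.1

omit [Fintype F] in
theorem ext1_det {X : Type*} [Fintype X] [DecidableEq X] (g : GL X F) : Matrix.GeneralLinearGroup.det (ext1 X g) = 1 := by
  apply Units.ext
  show (Matrix.fromBlocks (g : Matrix X X F) 0 0 (Matrix.diagonal fun _ : Unit => (((Matrix.GeneralLinearGroup.det g)⁻¹ : Fˣ) : F))).det = 1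
  rw [Matrix.det_fromBlocks_zero₂₁, Matrix.det_diagonal]
  simp only [Finset.univ_unique, Finset.prod_singleton]
  have : (g : Matrix X X F).det = ((Matrix.GeneralLinearGroup.det g : Fˣ) : F) := rfl
  rw [this, ← Units.val_mul, mul_inv_cancel, Units.val_one]

theorem final_4628 (hF : Odd (Fintype.card F)) (hq : 4 ∣ Fintype.card F + 1) (m : ℕ) (P : Sylow 2 (Matrix.SpecialLinearGroup (Fin (2 * m + 1)) F)) :
    ∀ x : (P : Subgroup (Matrix.SpecialLinearGroup (Fin (2 * m + 1)) F)), x ^ 2 ∈ commutator (P : Subgroup (Matrix.SpecialLinearGroup (Fin (2 * m + 1)) F)) := by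
  classical
  have h3 : 3 ≤ Fintype.card F := by
    have := Fintype.one_lt_card (α := F)
    obtain ⟨t, ht⟩ := hF
    omega
  obtain ⟨S, hS1, hS2, hS3⟩ := GL_even (F := F) rfl hF h3 hq m
  have e : (Fin 2 × Fin m) ⊕ Unit ≃ Fin (2 * m + 1) := Fintype.equivOfCardEq (by simp)
  refine final_SL e (S.map (ext1 _)) ?_ (hS1.map _) ?_ (hS3.map _) P
  · rintro _ ⟨s, -, rfl⟩
    exact ext1_det s
  · rw [← Nat.card_congr (Subgroup.equivMapOfInjective S _ ext1_inj).toEquiv]
    refine le_trans (le_of_eq ?_) hS2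
    congr 1
    have h1 := v_SL (F := F) rfl hF (by omega) (n := 2 * m + 1) (by omega)
    rw [Finset.sum_range_succ, v_sum hF (by omega), v_odd_pow hF (by omega) ⟨m, rfl⟩] at h1
    omega

end Cfsg.Agent.H15.SP
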