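import Cfsg.Agent.H15_SP3

set_option autoImplicit false
set_option maxHeartbeats 1000000

/-! `SL_{2m}(q)`, `q ≡ 3 mod 4`. -/

namespace Cfsg.Agent.H15.SP

open Cfsg Matrix Cfsg.Agent.H15.EA Cfsg.Agent.H15.GG

open scoped commutatorElement

variable {F : Type*} [Field F]

open Classical in
/-- `-1 ↦ wr` -/
noncomputable def om (F : Type*) [Field F] : ℤˣ →* GL (Fin 2) F where
  toFun ε := if ε = 1 then 1 else wr F
  map_one' := if_pos rfl
  map_mul' a b := by
    rcases Int.units_eq_one_or a with rfl | rfl <;> rcases Int.units_eq_one_or b with rfl | rfl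
    · simp
    · simp
    · simp
    · have e1 : (-1 * -1 : ℤˣ) = 1 := by decide
      have e2 : ¬ ((-1 : ℤˣ) = 1) := by decide
      rw [if_pos e1, if_neg e2, wr_sq]

theorem om_neg : om F (-1) = wr F := by
  show (if (-1 : ℤˣ) = 1 then 1 else wr F) = wr F
  exact if_neg (by decide)

theorem om_mem (ε : ℤˣ) : om F ε ∈ Dh F := by
  rcases Int.units_eq_one_or ε with rfl | rfl
  · rw [map_one]; exact (Dh F).one_mem
  · rw [om_neg]; exact wr_mem

noncomputable def Hh (F : Type*) [Field F] (m : ℕ) : (Fin m → ℤˣ) →* GL (Fin 2 × Fin m) F := (bd m).comp ((om F).compLeft (Fin m))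

variable [Fintype F]

theorem case1 (hF : Odd (Fintype.card F)) (hq : 4 ∣ Fintype.card F + 1) (m : ℕ) (hm : 1 ≤ m) (P : Sylow 2 (Matrix.SpecialLinearGroup (Fin (2 * m)) F)) :
    ∀ x : (P : Subgroup (Matrix.SpecialLinearGroup (Fin (2 * m)) F)), x ^ 2 ∈ commutator (P : Subgroup (Matrix.SpecialLinearGroup (Fin (2 * m)) F)) := by
  classical
  have h3 : 3 ≤ Fintype.card F := by
    have := Fintype.one_lt_card (α := F)
    obtain ⟨t, ht⟩ := hF
    omega
  have h2 : (2 : F) ≠ 0 := Cfsg.Agent.H5.SL2Quat.two_ne_zero' hF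
  obtain ⟨q, hq'⟩ : ∃ q, q = Fintype.card F := ⟨_, rfl⟩
  have hqF : Fintype.card F = q := hq'.symm
  have hFq : Odd q := by rw [hq']; exact hF
  have hq3 : 3 ≤ q := by rw [hq']; exact h3
  obtain ⟨w, hw⟩ : ∃ w, w = (q - 1).factorization 2 := ⟨_, rfl⟩
  obtain ⟨u, hu⟩ : ∃ u, u = (q + 1).factorization 2 := ⟨_, rfl⟩
  let T : Sylow 2 (Equiv.Perm (Fin m)) := default
  have hTgood : Good (T : Subgroup (Equiv.Perm (Fin m))) := good_perm m T
  let K : Subgroup (Fin m → GL (Fin 2) F) := Subgroup.pi Set.univ fun _ : Fin m => Dh F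
  let K1 : Subgroup (Fin m → GL (Fin 2) F) := K ⊓ (Matrix.GeneralLinearGroup.det.comp (bd (F := F) m)).ker
  let A : Subgroup (GL (Fin 2 × Fin m) F) := K1.map (bd m)
  let B : Subgroup (GL (Fin 2 × Fin m) F) := (T : Subgroup (Equiv.Perm (Fin m))).map (bp F m)
  have hK : IsPGroup 2 K := pi_p Dh_p
  have hA : IsPGroup 2 A := (hK.to_le inf_le_left).map _
  have hB : IsPGroup 2 B := T.isPGroup'.map _
  have hd : Disjoint A B := by
    rw [disjoint_iff, eq_bot_iff]
    rintro x ⟨⟨f, hf, rfl⟩, ⟨σ, hσ, h⟩⟩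
    have := bd_eq_bp h.symm
    rw [this, map_one] at h
    exact h.symm
  have hn : ∀ g ∈ B, ∀ a ∈ A, g * a * g⁻¹ ∈ A := by
    rintro _ ⟨σ, hσ, rfl⟩ _ ⟨f, hf, rfl⟩
    refine ⟨f ∘ ⇑(σ⁻¹), ⟨fun i _ => hf.1 (σ⁻¹ i) (Set.mem_univ _), ?_⟩, ?_⟩
    · have h1 : Matrix.GeneralLinearGroup.det (bd m f) = 1 := hf.2
      show Matrix.GeneralLinearGroup.det (bd m (f ∘ ⇑(σ⁻¹))) = 1
      rw [bd_det] at h1 ⊢
      rw [← h1]
      exact Equiv.prod_comp σ⁻¹ (fun i => Matrix.GeneralLinearGroup.det (f i))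
    · rw [bp_bd, mul_inv_cancel_right]
  have e : Fin 2 × Fin m ≃ Fin (2 * m) := Fintype.equivOfCardEq (by simp)
  refine final_SL e (A ⊔ B) ?_ (IsPGroup.to_sup_of_normal_left' hA hB (le_norm hn)) ?_ ?_ P
  · have h1 : A ⊔ B ≤ (Matrix.GeneralLinearGroup.det : GL (Fin 2 × Fin m) F →* Fˣ).ker := by
      refine sup_le ?_ ?_
      · rintro _ ⟨f, hf, rfl⟩
        exact hf.2
      · rintro _ ⟨σ, -, rfl⟩
        exact bp_det σ
    exact h1
  · have h1 : Nat.card (A × B) ≤ Nat.card (A ⊔ B : Subgroup (GL (Fin 2 × Fin m) F)) := by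
      refine Nat.card_le_card_of_injective (fun g => ⟨(g.1 : GL (Fin 2 × Fin m) F) * g.2, Subgroup.mul_mem_sup g.1.2 g.2.2⟩) fun x y hxy => ?_
      exact Subgroup.mul_injective_of_disjoint hd (Subtype.mk.inj hxy)
    refine le_trans ?_ h1
    have cA : Nat.card A = Nat.card K1 := (Nat.card_congr (Subgroup.equivMapOfInjective _ _ bd_inj).toEquiv).symm
    have cB : Nat.card B = 2 ^ (m.factorial).factorization 2 := by
      rw [← Nat.card_congr (Subgroup.equivMapOfInjective _ _ bp_inj).toEquiv, T.card_eq_multiplicity, Nat.card_perm, Nat.card_fin]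
    have hwm : w ≤ m * (u + w + w) := by nlinarith
    have cK : 2 ^ ((m * (u + w + w) - w) + w) ∣ Nat.card K := by
      rw [Nat.sub_add_cancel hwm, card_pi, Nat.card_fin, mul_comm, pow_mul]
      apply pow_dvd_pow_of_dvd
      rw [hu, hw]
      exact (Dh_facts hqF hFq hq3).1
    have hU : (Nat.card Fˣ).factorization 2 = w := by rw [Nat.card_units, Nat.card_eq_fintype_card, hqF, hw]
    have cker := ker_big cK hK hU ((Matrix.GeneralLinearGroup.det.comp (bd (F := F) m)).comp K.subtype)
    have cK1 : Nat.card ((Matrix.GeneralLinearGroup.det.comp (bd (F := F) m)).comp K.subtype).ker ≤ Nat.card K1 := by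
      refine Nat.card_le_card_of_injective (fun x => ⟨((x : K) : Fin m → GL (Fin 2) F), (x : K).2, x.2⟩) fun x y hxy => ?_
      exact Subtype.ext (Subtype.ext (Subtype.mk.inj hxy))
    rw [Nat.card_prod, cA, cB]
    refine le_trans ?_ (Nat.mul_le_mul_right _ ((Nat.le_of_dvd Nat.card_pos cker).trans cK1))
    rw [← pow_add]
    apply Nat.pow_le_pow_right (by norm_num)
    have h4 := v_SL (F := F) hqF hFq (by omega) (n := 2 * m) (by omega)
    rw [v_sum hFq (by omega), ← hu, ← hw] at h4
    have h5 : m * (u + w + w) = m * w + m * (u + w) := by ring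
    omega
  · -- generation
    let i0 : Fin m := ⟨0, by omega⟩
    have hle1 : A ≤ A ⊔ B := le_sup_left
    have hDS : ((Subgroup.pi Set.univ fun _ : Fin m => DS F).map (bd m)) ≤ A := by
      rintro _ ⟨f, hf, rfl⟩
      refine ⟨f, ⟨fun i hi => DS_le (hf i hi), ?_⟩, rfl⟩
      show Matrix.GeneralLinearGroup.det (bd m f) = 1
      rw [bd_det]
      apply Finset.prod_eq_one
      intro i _
      obtain ⟨s, -, hs⟩ := hf i (Set.mem_univ i)
      rw [← hs]
      exact toGL_det s
    have hdsgood : Good ((Subgroup.pi Set.univ fun _ : Fin m => DS F).map (bd m)) := (good_pi (DS_good hqF hFq hq3)).map _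
    have hneg : (-1 : Fˣ) ≠ 1 := by
      intro h
      have h1 : (-1 : F) = 1 := congrArg Units.val h
      apply h2
      linear_combination -h1
    have hprod : ∀ ε : Fin m → ℤˣ, Matrix.GeneralLinearGroup.det (Hh F m ε) = Matrix.GeneralLinearGroup.det (om F (∏ i, ε i)) := by
      intro ε
      have h1 : Matrix.GeneralLinearGroup.det (Hh F m ε) = ∏ i, Matrix.GeneralLinearGroup.det (om F (ε i)) := bd_det _
      rw [h1]
      exact (map_prod (Matrix.GeneralLinearGroup.det.comp (om F)) ε Finset.univ).symm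
    have hHmem : ∀ ε : Fin m → ℤˣ, (∏ i, ε i = 1) → Hh F m ε ∈ A := by
      intro ε hε
      refine ⟨fun i => om F (ε i), ⟨fun i _ => om_mem _, ?_⟩, rfl⟩
      have h1 := hprod ε
      rw [hε, map_one, map_one] at h1
      exact h1
    refine Good.of_closure (S := (((Subgroup.pi Set.univ fun _ : Fin m => DS F).map (bd m) : Subgroup _) : Set (GL (Fin 2 × Fin m) F)) ∪
      {x | ∃ ε : Fin m → ℤˣ, (∏ i, ε i = 1) ∧ x = Hh F m ε} ∪ (B : Set (GL (Fin 2 × Fin m) F))) ?_ ?_ ?_
    · refine sup_le ?_ (fun x hx => Subgroup.subset_closure (Or.inr hx))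
      rintro _ ⟨f, hf, rfl⟩
      have hfd : Matrix.GeneralLinearGroup.det (bd m f) = 1 := hf.2
      let ε : Fin m → ℤˣ := fun i => if Matrix.GeneralLinearGroup.det (f i) = 1 then 1 else -1
      have hε : ∀ i, Matrix.GeneralLinearGroup.det (om F (ε i)) = Matrix.GeneralLinearGroup.det (f i) := by
        intro i
        by_cases h : Matrix.GeneralLinearGroup.det (f i) = 1
        · simp only [ε]
          rw [if_pos h, h, map_one, map_one]
        · simp only [ε]
          rw [if_neg h, om_neg, wr_det]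
          rcases Dh_det hq (hf.1 i (Set.mem_univ i)) with h' | h'
          · exact absurd h' h
          · exact h'.symm
      have hp : ∏ i, ε i = 1 := by
        rw [bd_det] at hfd
        have h1 : Matrix.GeneralLinearGroup.det (om F (∏ i, ε i)) = 1 := by
          rw [← hfd]
          exact (map_prod (Matrix.GeneralLinearGroup.det.comp (om F)) ε Finset.univ).trans (Finset.prod_congr rfl fun i _ => hε i)
        rcases Int.units_eq_one_or (∏ i, ε i) with h | h
        · exact h
        · exfalso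
          rw [h, om_neg, wr_det] at h1
          exact hneg h1
      have hg : bd m f = bd m (fun i => f i * (om F (ε i))⁻¹) * Hh F m ε := by
        have h1 : Hh F m ε = bd m (fun i => om F (ε i)) := rfl
        rw [h1, ← map_mul]
        congr 1
        funext i
        simp
      rw [hg]
      refine Subgroup.mul_mem _ (Subgroup.subset_closure (Or.inl (Or.inl ⟨_, fun i _ => ?_, rfl⟩))) (Subgroup.subset_closure (Or.inl (Or.inr ⟨ε, hp, rfl⟩)))
      apply mem_DS ((Dh F).mul_mem (hf.1 i (Set.mem_univ i)) ((Dh F).inv_mem (om_mem _)))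
      rw [map_mul, map_inv, hε, mul_inv_cancel]
    · rintro x ((hx | ⟨ε, hε, rfl⟩) | hx)
      · exact hle1 (hDS hx)
      · exact hle1 (hHmem ε hε)
      · exact (le_sup_right : B ≤ A ⊔ B) hx
    · rintro x ((hx | ⟨ε, hε, rfl⟩) | hx)
      · exact Subgroup.commutator_mono (hDS.trans hle1) (hDS.trans hle1) (hdsgood x hx)
      · rw [← map_pow]
        have : ε ^ 2 = 1 := by
          funext i
          exact Int.units_sq (ε i)
        rw [this, map_one]
        exact Subgroup.one_mem _
      · exact Subgroup.commutator_mono le_sup_right le_sup_right ((hTgood.map (bp F m)) x hx)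

end Cfsg.Agent.H15.SP
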