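import Cfsg.Agent.H15_SP4

set_option autoImplicit false
set_option maxHeartbeats 1000000

/-! `SL_{2m}(q)`, `q ≡ 1 mod 4`, `m` a power of two. -/

namespace Cfsg.Agent.H15.SP

open Cfsg Matrix Cfsg.Agent.H15.EA Cfsg.Agent.H15.GG

open scoped commutatorElement

theorem exists_mul_of_sup {G : Type*} [Group G] {A B : Subgroup G} (hn : ∀ b ∈ B, ∀ a ∈ A, b * a * b⁻¹ ∈ A) {x : G} (hx : x ∈ A ⊔ B) :
    ∃ a ∈ A, ∃ b ∈ B, x = a * b := by
  let C : Subgroup G :=
    { carrier := {x | ∃ a ∈ A, ∃ b ∈ B, x = a * b}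
      one_mem' := ⟨1, A.one_mem, 1, B.one_mem, by simp⟩
      mul_mem' := by
        rintro _ _ ⟨a, ha, b, hb, rfl⟩ ⟨a', ha', b', hb', rfl⟩
        exact ⟨a * (b * a' * b⁻¹), A.mul_mem ha (hn b hb a' ha'), b * b', B.mul_mem hb hb', by group⟩
      inv_mem' := by
        rintro _ ⟨a, ha, b, hb, rfl⟩
        exact ⟨b⁻¹ * a⁻¹ * b⁻¹⁻¹, hn _ (B.inv_mem hb) _ (A.inv_mem ha), b⁻¹, B.inv_mem hb, by group⟩ }
  have h : A ⊔ B ≤ C := sup_le (fun a ha => ⟨a, ha, 1, B.one_mem, by simp⟩) (fun b hb => ⟨1, A.one_mem, b, hb, by simp⟩)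
  exact h hx

theorem sup_zp {G : Type*} [Group G] {N : Subgroup G} {s : G} (hs : s * s = 1) (hN : ∀ n ∈ N, s * n * s⁻¹ ∈ N) (hp : IsPGroup 2 N) :
    IsPGroup 2 (N ⊔ Subgroup.zpowers s : Subgroup G) := by
  refine IsPGroup.to_sup_of_normal_left' hp ?_ ?_
  · rintro ⟨g, k, rfl⟩
    refine ⟨1, Subtype.ext ?_⟩
    show (s ^ k) ^ 2 ^ 1 = 1
    rw [pow_one, pow_two, ← (Commute.refl s).mul_zpow, hs, _root_.one_zpow]
  · rw [Subgroup.zpowers_le, Subgroup.mem_normalizer_iff]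
    intro n
    refine ⟨fun hn => hN n hn, fun hn => ?_⟩
    have := hN _ hn
    have e : s * (s * n * s⁻¹) * s⁻¹ = (s * s) * n * (s * s)⁻¹ := by group
    rwa [e, hs, one_mul, inv_one, mul_one] at this

structure TData (X : Type*) (T : Subgroup (Equiv.Perm X)) (N : ℕ) : Prop where
  p : IsPGroup 2 T
  card : 2 ^ N ≤ Nat.card T
  gen : ∃ I : Set (Equiv.Perm X), I ⊆ T ∧ T ≤ Subgroup.closure I ∧ ∀ τ ∈ I, τ * τ = 1
  swap : ∀ i j, ∃ σ ∈ T, σ i = j ∧ σ j = i

theorem exists_T (k : ℕ) : ∃ (X : Type) (_ : Fintype X) (_ : DecidableEq X) (T : Subgroup (Equiv.Perm X)), Fintype.card X = 2 ^ k ∧ TData X T (2 ^ k - 1) := by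
  classical
  induction k with
  | zero =>
    refine ⟨Unit, inferInstance, inferInstance, ⊥, rfl, ⟨IsPGroup.of_bot, ?_, ⟨∅, by simp, by simp, by simp⟩, fun i j => ⟨1, Subgroup.one_mem _, rfl, rfl⟩⟩⟩
    simp
  | succ k ih =>
    obtain ⟨X, _, _, T, hX, hp, hc, ⟨I, hI1, hI2, hI3⟩, hsw⟩ := ih
    let E : Equiv.Perm X × Equiv.Perm X →* Equiv.Perm (X ⊕ X) := Equiv.Perm.sumCongrHom X X
    have hEinj : Function.Injective E := Equiv.Perm.sumCongrHom_injective
    have hEl : ∀ σ τ x, E (σ, τ) (Sum.inl x) = Sum.inl (σ x) := fun _ _ _ => rfl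
    have hEr : ∀ σ τ x, E (σ, τ) (Sum.inr x) = Sum.inr (τ x) := fun _ _ _ => rfl
    let s : Equiv.Perm (X ⊕ X) := Equiv.sumComm X X
    have hsl : ∀ x, s (Sum.inl x) = Sum.inr x := fun _ => rfl
    have hsr : ∀ x, s (Sum.inr x) = Sum.inl x := fun _ => rfl
    have hs : s * s = 1 := by
      ext x
      rcases x with x | x <;> simp [hsl, hsr]
    have hsinv : s⁻¹ = s := by rw [inv_eq_iff_mul_eq_one]; exact hs
    have hconj : ∀ σ τ, s * E (σ, τ) * s⁻¹ = E (τ, σ) := by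
      intro σ τ
      rw [hsinv]
      ext x
      rcases x with x | x <;> simp [hsl, hsr, hEl, hEr]
    let N : Subgroup (Equiv.Perm (X ⊕ X)) := (T.prod T).map E
    have hNp : IsPGroup 2 N := by
      refine IsPGroup.map ?_ E
      obtain ⟨t, ht⟩ := IsPGroup.iff_card.1 hp
      refine IsPGroup.of_card (n := t + t) ?_
      rw [Nat.card_congr (Subgroup.prodEquiv T T).toEquiv, Nat.card_prod, ht, pow_add]
    have hNs : ∀ n ∈ N, s * n * s⁻¹ ∈ N := by
      rintro _ ⟨⟨σ, τ⟩, ⟨h1, h2⟩, rfl⟩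
      exact ⟨(τ, σ), ⟨h2, h1⟩, (hconj σ τ).symm⟩
    have hpos : 0 < Fintype.card X := by rw [hX]; positivity
    obtain ⟨x0⟩ : Nonempty X := Fintype.card_pos_iff.1 hpos
    have hsN : s ∉ N := by
      rintro ⟨⟨σ, τ⟩, -, h⟩
      have := congrArg (fun t : Equiv.Perm (X ⊕ X) => t (Sum.inl x0)) h
      simp only [hEl, hsl] at this
      exact Sum.inl_ne_inr this
    have hsT : s ∈ N ⊔ Subgroup.zpowers s := (le_sup_right : Subgroup.zpowers s ≤ _) (Subgroup.mem_zpowers s)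
    have hET : ∀ σ ∈ T, ∀ τ ∈ T, E (σ, τ) ∈ N ⊔ Subgroup.zpowers s := fun σ hσ τ hτ => (le_sup_left : N ≤ _) ⟨(σ, τ), ⟨hσ, hτ⟩, rfl⟩
    refine ⟨X ⊕ X, inferInstance, inferInstance, N ⊔ Subgroup.zpowers s, by rw [Fintype.card_sum, hX]; ring, ⟨sup_zp hs hNs hNp, ?_, ?_, ?_⟩⟩
    · have cN : Nat.card N = Nat.card T * Nat.card T := by
        rw [← Nat.card_congr (Subgroup.equivMapOfInjective _ _ hEinj).toEquiv, Nat.card_congr (Subgroup.prodEquiv T T).toEquiv, Nat.card_prod]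
      obtain ⟨t, ht⟩ := Subgroup.card_dvd_of_le (le_sup_left : N ≤ N ⊔ Subgroup.zpowers s)
      have ht1 : t ≠ 1 := by
        rintro rfl
        have h3 : N = N ⊔ Subgroup.zpowers s := Subgroup.eq_of_le_of_card_ge le_sup_left (by rw [ht, mul_one])
        exact hsN (h3 ▸ hsT)
      have ht0 : t ≠ 0 := by
        rintro rfl
        rw [mul_zero] at ht
        exact Nat.card_pos.ne' ht
      have ht2 : 2 ≤ t := by omega
      rw [ht, cN]
      have h1 : 1 ≤ 2 ^ k := Nat.one_le_two_pow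
      calc 2 ^ (2 ^ (k + 1) - 1) = (2 ^ (2 ^ k - 1) * 2 ^ (2 ^ k - 1)) * 2 := by
            rw [← pow_add, ← pow_succ]
            congr 1
            rw [pow_succ]
            omega
        _ ≤ (Nat.card T * Nat.card T) * t := Nat.mul_le_mul (Nat.mul_le_mul hc hc) ht2
    · refine ⟨{x | ∃ τ ∈ I, x = E (τ, 1)} ∪ {s}, ?_, ?_, ?_⟩
      · rintro x (⟨τ, hτ, rfl⟩ | rfl)
        · exact hET τ (hI1 hτ) 1 T.one_mem
        · exact hsT
      · set C := Subgroup.closure ({x | ∃ τ ∈ I, x = E (τ, 1)} ∪ {s}) with hC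
        have hsC : s ∈ C := Subgroup.subset_closure (Or.inr rfl)
        have h1 : ∀ σ ∈ T, E (σ, 1) ∈ C := by
          intro σ hσ
          have h2 : Subgroup.closure I ≤ C.comap (E.comp (MonoidHom.inl _ _)) := by
            rw [Subgroup.closure_le]
            intro τ hτ
            exact Subgroup.subset_closure (Or.inl ⟨τ, hτ, rfl⟩)
          exact h2 (hI2 hσ)
        have h2 : ∀ σ ∈ T, E (1, σ) ∈ C := by
          intro σ hσ
          rw [← hconj σ 1]
          exact C.mul_mem (C.mul_mem hsC (h1 σ hσ)) (C.inv_mem hsC)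
        refine sup_le ?_ ((Subgroup.zpowers_le).2 hsC)
        rintro _ ⟨⟨σ, τ⟩, ⟨h3, h4⟩, rfl⟩
        have e : ((σ, τ) : Equiv.Perm X × Equiv.Perm X) = (σ, 1) * (1, τ) := by simp
        rw [e, map_mul]
        exact C.mul_mem (h1 σ h3) (h2 τ h4)
      · rintro x (⟨τ, hτ, rfl⟩ | rfl)
        · rw [← map_mul]
          have e : ((τ, 1) : Equiv.Perm X × Equiv.Perm X) * (τ, 1) = 1 := by
            rw [Prod.mk_mul_mk, hI3 τ hτ, mul_one]; rfl
          rw [e, map_one]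
        · exact hs
    · rintro (i | i) (j | j)
      · obtain ⟨σ, h1, h2, h3⟩ := hsw i j
        exact ⟨E (σ, 1), hET σ h1 1 T.one_mem, by rw [hEl, h2], by rw [hEl, h3]⟩
      · obtain ⟨σ, h1, h2, h3⟩ := hsw i j
        refine ⟨s * E (σ, σ), Subgroup.mul_mem _ hsT (hET σ h1 σ h1), ?_, ?_⟩
        · rw [Equiv.Perm.mul_apply, hEl, h2, hsl]
        · rw [Equiv.Perm.mul_apply, hEr, h3, hsr]
      · obtain ⟨σ, h1, h2, h3⟩ := hsw i j
        refine ⟨s * E (σ, σ), Subgroup.mul_mem _ hsT (hET σ h1 σ h1), ?_, ?_⟩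
        · rw [Equiv.Perm.mul_apply, hEr, h2, hsr]
        · rw [Equiv.Perm.mul_apply, hEl, h3, hsl]
      · obtain ⟨σ, h1, h2, h3⟩ := hsw i j
        exact ⟨E (1, σ), hET 1 T.one_mem σ h1, by rw [hEr, h2], by rw [hEr, h3]⟩

theorem v_fact_two_pow (j : ℕ) : ((2 ^ j).factorial).factorization 2 = 2 ^ j - 1 := by
  haveI : Fact (Nat.Prime 2) := ⟨Nat.prime_two⟩
  induction j with
  | zero => simp
  | succ j ih =>
    have h1 := padicValNat_factorial_mul (p := 2) (2 ^ j)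
    rw [← Nat.factorization_def _ Nat.prime_two, ← Nat.factorization_def _ Nat.prime_two, ih] at h1
    have h2 : 1 ≤ 2 ^ j := Nat.one_le_two_pow
    rw [pow_succ, mul_comm, h1]
    omega

variable {F : Type*} [Field F] {X : Type*} [Fintype X] [DecidableEq X]

/-- diagonal matrices -/
def dgM (F : Type*) [Field F] (X : Type*) [Fintype X] [DecidableEq X] : (X → Fˣ) →* Matrix X X F where
  toFun f := Matrix.diagonal fun i => (f i : F)
  map_one' := by simp
  map_mul' f g := by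
    rw [Matrix.diagonal_mul_diagonal]
    rfl

def dg (F : Type*) [Field F] (X : Type*) [Fintype X] [DecidableEq X] : (X → Fˣ) →* GL X F := (dgM F X).toHomUnits

theorem dg_det (f : X → Fˣ) : Matrix.GeneralLinearGroup.det (dg F X f) = ∏ i, f i := by
  apply Units.ext
  refine Eq.trans ?_ (Units.coe_prod _ _).symm
  exact Matrix.det_diagonal

theorem dg_inj : Function.Injective (dg F X) := by
  intro f g h
  have h1 : (Matrix.diagonal fun i => (f i : F)) = Matrix.diagonal fun i => (g i : F) := congrArg (fun t : GL X F => (t : Matrix X X F)) h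
  funext i
  exact Units.ext (congrFun (Matrix.diagonal_injective h1) i)

theorem pm_dg (σ : Equiv.Perm X) (f : X → Fˣ) : pm F X σ * dg F X f = dg F X (f ∘ ⇑(σ⁻¹)) * pm F X σ := by
  apply Units.ext
  exact PM_mul_diagonal σ fun i => (f i : F)

theorem dg_eq_pm {f : X → Fˣ} {σ : Equiv.Perm X} (h : dg F X f = pm F X σ) : σ = 1 := by
  have h1 : (Matrix.diagonal fun i => (f i : F)) = PM F σ := congrArg (fun t : GL X F => (t : Matrix X X F)) h
  ext i
  have h2 := congrFun (congrFun h1 (σ i)) i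
  rw [PM_apply, if_pos rfl] at h2
  by_contra hne
  have hne' : σ i ≠ i := hne
  rw [Matrix.diagonal_apply_ne _ hne'] at h2
  exact zero_ne_one h2

/-- the 2-part of the units -/
def Z2 (F : Type*) [Field F] : Subgroup Fˣ where
  carrier := {z | ∃ k : ℕ, z ^ 2 ^ k = 1}
  one_mem' := ⟨0, one_pow _⟩
  mul_mem' := by
    rintro g h ⟨k, hk⟩ ⟨l, hl⟩
    exact ⟨k + l, by rw [mul_pow, pow_add 2 k l, pow_mul, hk, one_pow, one_mul, mul_comm, pow_mul, hl, one_pow]⟩
  inv_mem' := by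
    rintro g ⟨k, hk⟩
    exact ⟨k, by rw [inv_pow, hk, inv_one]⟩

theorem Z2_p : IsPGroup 2 (Z2 F) := by
  rintro ⟨g, k, hk⟩
  exact ⟨k, Subtype.ext hk⟩

theorem Z2_card [Fintype F] : 2 ^ (Nat.card Fˣ).factorization 2 ≤ Nat.card (Z2 F) := by
  classical
  let P : Sylow 2 Fˣ := default
  rw [← P.card_eq_multiplicity]
  refine Nat.card_le_card_of_injective (fun x : P => (⟨(x : Fˣ), ?_⟩ : Z2 F)) ?_
  · obtain ⟨k, hk⟩ := P.isPGroup' x
    exact ⟨k, congrArg (fun t : P => (t : Fˣ)) hk⟩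
  · intro x y h
    exact Subtype.ext (Subtype.mk.inj h)

variable [Fintype F]

theorem case2 (hF : Odd (Fintype.card F)) (hq : 4 ∣ Fintype.card F - 1) (j : ℕ) (P : Sylow 2 (Matrix.SpecialLinearGroup (Fin (2 * 2 ^ j)) F)) :
    ∀ x : (P : Subgroup (Matrix.SpecialLinearGroup (Fin (2 * 2 ^ j)) F)), x ^ 2 ∈ commutator (P : Subgroup (Matrix.SpecialLinearGroup (Fin (2 * 2 ^ j)) F)) := by
  classical
  have h3 : 3 ≤ Fintype.card F := by
    have := Fintype.one_lt_card (α := F)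
    obtain ⟨t, ht⟩ := hF
    omega
  have h2 : (2 : F) ≠ 0 := Cfsg.Agent.H5.SL2Quat.two_ne_zero' hF
  obtain ⟨q, hq'⟩ : ∃ q, q = Fintype.card F := ⟨_, rfl⟩
  have hqF : Fintype.card F = q := hq'.symm
  have hFq : Odd q := by rw [hq']; exact hF
  have hq3 : 3 ≤ q := by rw [hq']; exact h3
  obtain ⟨w, hw⟩ : ∃ w, w = (q - 1).factorization 2 := ⟨_, rfl⟩
  have hu : (q + 1).factorization 2 = 1 := v_two_mod (by rw [← hqF]; omega)
  obtain ⟨i0, hi0⟩ : IsSquare (-1 : F) := by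
    rw [FiniteField.isSquare_neg_one_iff]
    omega
  have hU : (Nat.card Fˣ).factorization 2 = w := by rw [Nat.card_units, Nat.card_eq_fintype_card, hqF, hw]
  obtain ⟨X, _, _, T, hX, hTp, hTc, ⟨I, hI1, hI2, hI3⟩, hsw⟩ := exists_T (j + 1)
  let Kz : Subgroup (X → Fˣ) := Subgroup.pi Set.univ fun _ : X => Z2 F
  let A : Subgroup (GL X F) := Kz.map (dg F X)
  let B : Subgroup (GL X F) := T.map (pm F X)
  have hA : IsPGroup 2 A := (pi_p Z2_p).map _
  have hB : IsPGroup 2 B := hTp.map _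
  have hn : ∀ g ∈ B, ∀ a ∈ A, g * a * g⁻¹ ∈ A := by
    rintro _ ⟨σ, hσ, rfl⟩ _ ⟨f, hf, rfl⟩
    refine ⟨f ∘ ⇑(σ⁻¹), fun i _ => hf (σ⁻¹ i) (Set.mem_univ _), ?_⟩
    rw [pm_dg, mul_inv_cancel_right]
  have hd : Disjoint A B := by
    rw [disjoint_iff, eq_bot_iff]
    rintro x ⟨⟨f, hf, rfl⟩, ⟨σ, hσ, h⟩⟩
    have := dg_eq_pm h.symm
    rw [this, map_one] at h
    exact h.symm
  have hABp : IsPGroup 2 (A ⊔ B : Subgroup (GL X F)) := IsPGroup.to_sup_of_normal_left' hA hB (le_norm hn)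
  let δ : GL X F →* Fˣ := Matrix.GeneralLinearGroup.det
  let S0 : Subgroup (GL X F) := (A ⊔ B) ⊓ δ.ker
  have e : X ≃ Fin (2 * 2 ^ j) := Fintype.equivOfCardEq (by rw [hX, Fintype.card_fin]; ring)
  refine final_SL e S0 (fun s hs => hs.2) (hABp.to_le inf_le_left) ?_ ?_ P
  · -- order
    have h1 : Nat.card (A × B) ≤ Nat.card (A ⊔ B : Subgroup (GL X F)) := by
      refine Nat.card_le_card_of_injective (fun g => ⟨(g.1 : GL X F) * g.2, Subgroup.mul_mem_sup g.1.2 g.2.2⟩) fun x y hxy => ?_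
      exact Subgroup.mul_injective_of_disjoint hd (Subtype.mk.inj hxy)
    have cA : 2 ^ (w * 2 ^ (j + 1)) ≤ Nat.card A := by
      rw [← Nat.card_congr (Subgroup.equivMapOfInjective _ _ dg_inj).toEquiv, card_pi, Nat.card_eq_fintype_card (α := X), hX, pow_mul]
      apply Nat.pow_le_pow_left
      rw [← hU]
      exact Z2_card
    have cB : 2 ^ (2 ^ (j + 1) - 1) ≤ Nat.card B := by
      rw [← Nat.card_congr (Subgroup.equivMapOfInjective _ _ pm_inj).toEquiv]
      exact hTc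
    rw [Nat.card_prod] at h1
    have h4 := (Nat.mul_le_mul cA cB).trans h1
    rw [← pow_add] at h4
    obtain ⟨t, ht⟩ := IsPGroup.iff_card.1 hABp
    have hj : 1 ≤ 2 ^ j := Nat.one_le_two_pow
    have hp2 : 2 ^ (j + 1) = 2 * 2 ^ j := by ring
    have hw2 : w ≤ w * 2 ^ (j + 1) + (2 ^ (j + 1) - 1) := by nlinarith
    have h5 : 2 ^ ((w * 2 ^ (j + 1) + (2 ^ (j + 1) - 1) - w) + w) ∣ Nat.card (A ⊔ B : Subgroup (GL X F)) := by
      rw [Nat.sub_add_cancel hw2]
      exact dvd_of_le_two_pow rfl ht h4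
    have cker := ker_big h5 hABp hU (δ.comp (A ⊔ B : Subgroup (GL X F)).subtype)
    have cS : Nat.card (δ.comp (A ⊔ B : Subgroup (GL X F)).subtype).ker ≤ Nat.card S0 := by
      refine Nat.card_le_card_of_injective (fun x => ⟨((x : (A ⊔ B : Subgroup (GL X F))) : GL X F), (x : (A ⊔ B : Subgroup (GL X F))).2, x.2⟩) fun x y hxy => ?_
      exact Subtype.ext (Subtype.ext (Subtype.mk.inj hxy))
    refine le_trans ?_ ((Nat.le_of_dvd Nat.card_pos cker).trans cS)
    apply Nat.pow_le_pow_right (by norm_num)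
    have h6 := v_SL (F := F) hqF hFq (by omega) (n := 2 * 2 ^ j) (by omega)
    rw [v_sum hFq (by omega), hu, ← hw, v_fact_two_pow] at h6
    have h7 : w * 2 ^ (j + 1) = 2 ^ j * w + 2 ^ j * w := by rw [hp2]; ring
    have h8 : 2 ^ j * (1 + w) = 2 ^ j + 2 ^ j * w := by ring
    rw [h7, hp2]
    rw [h8] at h6
    generalize 2 ^ j * w = a at *
    omega
  · -- squares
    have dgmem : ∀ z : X → Fˣ, (∀ i, z i ∈ Z2 F) → ∏ i, z i = 1 → dg F X z ∈ S0 := by
      intro z hz hz1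
      refine ⟨(le_sup_left : A ≤ A ⊔ B) ⟨z, fun i _ => hz i, rfl⟩, ?_⟩
      show Matrix.GeneralLinearGroup.det (dg F X z) = 1
      rw [dg_det]; exact hz1
    have liftmem : ∀ z : X → Fˣ, (∀ i, z i ∈ Z2 F) → ∀ σ ∈ T, (∏ i, z i) * δ (pm F X σ) = 1 → dg F X z * pm F X σ ∈ S0 := by
      intro z hz σ hσ h
      refine ⟨Subgroup.mul_mem_sup ⟨z, fun i _ => hz i, rfl⟩ ⟨σ, hσ, rfl⟩, ?_⟩
      show Matrix.GeneralLinearGroup.det (dg F X z * pm F X σ) = 1
      rw [map_mul, dg_det]; exact h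
    have ms_mem : ∀ (i : X) (ζ : Fˣ), ζ ∈ Z2 F → ∀ k, (Pi.mulSingle i ζ : X → Fˣ) k ∈ Z2 F := by
      intro i ζ hζ k
      by_cases hk : k = i
      · subst hk; simpa using hζ
      · rw [Pi.mulSingle_eq_of_ne hk]; exact (Z2 F).one_mem
    have ms_prod : ∀ (i : X) (ζ : Fˣ), ∏ k, (Pi.mulSingle i ζ : X → Fˣ) k = ζ := by
      intro i ζ
      rw [Finset.prod_eq_single i]
      · simp
      · intro b _ hb
        show (Pi.mulSingle i ζ : X → Fˣ) b = 1
        rw [Pi.mulSingle_eq_of_ne hb]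
      · intro h; exact absurd (Finset.mem_univ _) h
    have ms_comp : ∀ (i : X) (ζ : Fˣ) (σ : Equiv.Perm X), (Pi.mulSingle i ζ : X → Fˣ) ∘ ⇑(σ⁻¹) = Pi.mulSingle (σ i) ζ := by
      intro i ζ σ
      funext k
      simp only [Function.comp]
      by_cases hk : k = σ i
      · subst hk; simp
      · rw [Pi.mulSingle_eq_of_ne hk, Pi.mulSingle_eq_of_ne]
        rintro rfl
        exact hk (by simp)
    have sT : ∀ σ ∈ T, δ (pm F X σ) ∈ Z2 F := by
      intro σ hσ
      obtain ⟨k, hk⟩ := hTp ⟨σ, hσ⟩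
      have hk' : σ ^ 2 ^ k = 1 := congrArg Subtype.val hk
      exact ⟨k, by rw [← map_pow, ← map_pow, hk', map_one, map_one]⟩
    -- squares of pairs
    have pairs : ∀ (i l : X) (ζ : Fˣ), ζ ∈ Z2 F → i ≠ l → (dg F X (Pi.mulSingle i ζ * Pi.mulSingle l ζ⁻¹)) ^ 2 ∈ ⁅S0, S0⁆ := by
      intro i l ζ hζ hil
      obtain ⟨σ, hσ, h4, h5⟩ := hsw i l
      have hεS : dg F X (Pi.mulSingle i ζ * Pi.mulSingle l ζ⁻¹) ∈ S0 := by
        apply dgmem
        · intro k
          exact (Z2 F).mul_mem (ms_mem i ζ hζ k) (ms_mem l _ ((Z2 F).inv_mem hζ) k)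
        · simp only [Pi.mul_apply]
          rw [Finset.prod_mul_distrib, ms_prod, ms_prod, mul_inv_cancel]
      have hxS : dg F X (Pi.mulSingle l (δ (pm F X σ))⁻¹) * pm F X σ ∈ S0 := by
        apply liftmem _ (ms_mem l _ ((Z2 F).inv_mem (sT σ hσ))) σ hσ
        rw [ms_prod, inv_mul_cancel]
      have hcomm : ∀ a b : X → Fˣ, dg F X a * dg F X b = dg F X b * dg F X a := by
        intro a b
        rw [← map_mul, ← map_mul, mul_comm]
      have hc : ⁅dg F X (Pi.mulSingle i ζ * Pi.mulSingle l ζ⁻¹), dg F X (Pi.mulSingle l (δ (pm F X σ))⁻¹) * pm F X σ⁆ = (dg F X (Pi.mulSingle i ζ * Pi.mulSingle l ζ⁻¹)) ^ 2 := by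
        obtain ⟨ε, hε⟩ : ∃ ε : X → Fˣ, ε = Pi.mulSingle i ζ * Pi.mulSingle l ζ⁻¹ := ⟨_, rfl⟩
        obtain ⟨y, hy⟩ : ∃ y : X → Fˣ, y = Pi.mulSingle l (δ (pm F X σ))⁻¹ := ⟨_, rfl⟩
        rw [← hε, ← hy]
        have hεσ : ε ∘ ⇑(σ⁻¹) = ε⁻¹ := by
          have e1 : ε ∘ ⇑(σ⁻¹) = ((Pi.mulSingle i ζ : X → Fˣ) ∘ ⇑(σ⁻¹)) * ((Pi.mulSingle l ζ⁻¹ : X → Fˣ) ∘ ⇑(σ⁻¹)) := by
            rw [hε]; rfl
          rw [e1, ms_comp, ms_comp, h4, h5, hε, _root_.mul_inv_rev, ← Pi.mulSingle_inv, ← Pi.mulSingle_inv, inv_inv]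
        have h6 : pm F X σ * dg F X ε * (pm F X σ)⁻¹ = (dg F X ε)⁻¹ := by
          rw [pm_dg, mul_inv_cancel_right, hεσ, map_inv]
        have h7 : pm F X σ * (dg F X ε)⁻¹ * (pm F X σ)⁻¹ = dg F X ε := by
          have := congrArg (fun t => t⁻¹) h6
          simp only [_root_.mul_inv_rev, inv_inv] at this
          rw [mul_assoc]
          exact this
        rw [commutatorElement_def, _root_.mul_inv_rev]
        calc dg F X ε * (dg F X y * pm F X σ) * (dg F X ε)⁻¹ * ((pm F X σ)⁻¹ * (dg F X y)⁻¹)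
            = dg F X ε * (dg F X y * (pm F X σ * (dg F X ε)⁻¹ * (pm F X σ)⁻¹) * (dg F X y)⁻¹) := by group
          _ = dg F X ε * (dg F X y * dg F X ε * (dg F X y)⁻¹) := by rw [h7]
          _ = (dg F X ε) ^ 2 := by rw [hcomm y ε, mul_inv_cancel_right, pow_two]
      rw [← hc]
      exact Subgroup.commutator_mem_commutator hεS hxS
    obtain ⟨x0⟩ : Nonempty X := Fintype.card_pos_iff.1 (by rw [hX]; positivity)
    -- squares of diagonal elements
    have diagsq : ∀ z : X → Fˣ, (∀ i, z i ∈ Z2 F) → ∏ i, z i = 1 → (dg F X z) ^ 2 ∈ ⁅S0, S0⁆ := by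
      intro z hz hz1
      have h4 : z ∈ (⁅S0, S0⁆).comap ((dg F X).comp (powMonoidHom 2 : (X → Fˣ) →* (X → Fˣ))) := by
        apply prod_one_closure x0 _ z hz1
        intro i hi
        show dg F X ((Pi.mulSingle i (z i) * Pi.mulSingle x0 (z i)⁻¹) ^ 2) ∈ ⁅S0, S0⁆
        rw [map_pow]
        exact pairs i x0 (z i) (hz i) hi
      have h5 : dg F X (z ^ 2) ∈ ⁅S0, S0⁆ := h4
      rwa [map_pow] at h5
    have hi00 : i0 ≠ 0 := by
      rintro rfl
      rw [mul_zero] at hi0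
      exact one_ne_zero (neg_eq_zero.1 hi0)
    have hineg : (Units.mk0 i0 hi00) ^ 2 = -1 := by
      apply Units.ext
      rw [Units.val_pow_eq_pow_val, Units.val_mk0, pow_two, ← hi0]
      rfl
    have hιZ : Units.mk0 i0 hi00 ∈ Z2 F := by
      refine ⟨2, ?_⟩
      rw [show 2 ^ 2 = 2 * 2 by norm_num, pow_mul, hineg, neg_one_sq]
    have hneg1 : (-1 : Fˣ) ≠ 1 := by
      intro h
      have h1 : (-1 : F) = 1 := congrArg Units.val h
      apply h2
      linear_combination -h1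
    have hn1 : (-1 : Fˣ) ∈ Z2 F := by
      refine ⟨1, ?_⟩
      rw [pow_one, neg_one_sq]
    refine Good.of_closure (S := {x | ∃ z : X → Fˣ, (∀ i, z i ∈ Z2 F) ∧ ∏ i, z i = 1 ∧ x = dg F X z} ∪
      {x | x ∈ S0 ∧ x ^ 2 ∈ ⁅S0, S0⁆}) ?_ ?_ ?_
    · set C := Subgroup.closure ({x | ∃ z : X → Fˣ, (∀ i, z i ∈ Z2 F) ∧ ∏ i, z i = 1 ∧ x = dg F X z} ∪
        {x | x ∈ S0 ∧ x ^ 2 ∈ ⁅S0, S0⁆}) with hC
      -- every element of `T` lifts into the closure
      have lift : ∀ σ ∈ Subgroup.closure I, ∃ z : X → Fˣ, (∀ i, z i ∈ Z2 F) ∧ dg F X z * pm F X σ ∈ C := by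
        intro σ hσ
        induction hσ using Subgroup.closure_induction with
        | mem τ hτ =>
          have hτT := hI1 hτ
          have hs2 : δ (pm F X τ) * δ (pm F X τ) = 1 := by rw [← map_mul, ← map_mul, hI3 τ hτ, map_one, map_one]
          by_cases hs : δ (pm F X τ) = 1
          · refine ⟨1, fun i => (Z2 F).one_mem, Subgroup.subset_closure (Or.inr ⟨?_, ?_⟩)⟩
            · apply liftmem _ (fun i => (Z2 F).one_mem) τ hτT
              rw [hs]; simp
            · rw [map_one, one_mul, pow_two, ← map_mul, hI3 τ hτ, map_one]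
              exact Subgroup.one_mem _
          · have hs' : δ (pm F X τ) = -1 := by
              have h6 : ((δ (pm F X τ) : Fˣ) : F) * ((δ (pm F X τ) : Fˣ) : F) = 1 := by rw [← Units.val_mul, hs2, Units.val_one]
              rcases mul_self_eq_one_iff.1 h6 with h | h
              · exact absurd (Units.ext h) hs
              · exact Units.ext (by rw [h]; rfl)
            have hτ1 : τ ≠ 1 := by
              rintro rfl
              rw [map_one, map_one] at hs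
              exact hs rfl
            obtain ⟨i, hi⟩ : ∃ i, τ i ≠ i := by
              by_contra hcon
              push Not at hcon
              exact hτ1 (Equiv.ext hcon)
            refine ⟨Pi.mulSingle i (-1), ms_mem i _ hn1, Subgroup.subset_closure (Or.inr ⟨?_, ?_⟩)⟩
            · apply liftmem _ (ms_mem i _ hn1) τ hτT
              rw [ms_prod, hs', neg_one_mul, neg_neg]
            · have h7 : (dg F X (Pi.mulSingle i (-1)) * pm F X τ) ^ 2 = (dg F X (Pi.mulSingle i (Units.mk0 i0 hi00) * Pi.mulSingle (τ i) (Units.mk0 i0 hi00)⁻¹)) ^ 2 := by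
                rw [← map_pow, mul_pow, ← Pi.mulSingle_pow, ← Pi.mulSingle_pow, inv_pow, hineg]
                have e1 : ((-1 : Fˣ))⁻¹ = -1 := by
                  rw [inv_eq_iff_mul_eq_one, neg_mul_neg, one_mul]
                rw [e1, pow_two]
                calc dg F X (Pi.mulSingle i (-1)) * pm F X τ * (dg F X (Pi.mulSingle i (-1)) * pm F X τ)
                    = dg F X (Pi.mulSingle i (-1)) * (pm F X τ * dg F X (Pi.mulSingle i (-1))) * pm F X τ := by group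
                  _ = dg F X (Pi.mulSingle i (-1)) * (dg F X (Pi.mulSingle (τ i) (-1)) * pm F X τ) * pm F X τ := by rw [pm_dg, ms_comp]
                  _ = dg F X (Pi.mulSingle i (-1)) * dg F X (Pi.mulSingle (τ i) (-1)) * (pm F X τ * pm F X τ) := by group
                  _ = _ := by rw [← map_mul (pm F X), hI3 τ hτ, map_one, mul_one, ← map_mul]
              rw [h7]
              exact pairs i (τ i) _ hιZ (Ne.symm hi)
        | one => exact ⟨1, fun i => (Z2 F).one_mem, by rw [map_one, map_one, one_mul]; exact C.one_mem⟩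
        | mul a b _ _ iha ihb =>
          obtain ⟨z, hz, h⟩ := iha
          obtain ⟨y, hy, h'⟩ := ihb
          refine ⟨z * (y ∘ ⇑(a⁻¹)), fun i => (Z2 F).mul_mem (hz i) (hy _), ?_⟩
          have h9 := C.mul_mem h h'
          have e9 : dg F X z * pm F X a * (dg F X y * pm F X b) = dg F X (z * (y ∘ ⇑(a⁻¹))) * pm F X (a * b) := by
            calc dg F X z * pm F X a * (dg F X y * pm F X b) = dg F X z * (pm F X a * dg F X y) * pm F X b := by group
              _ = dg F X z * (dg F X (y ∘ ⇑(a⁻¹)) * pm F X a) * pm F X b := by rw [pm_dg]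
              _ = _ := by rw [map_mul, map_mul]; group
          rwa [e9] at h9
        | inv a _ iha =>
          obtain ⟨z, hz, h⟩ := iha
          refine ⟨z⁻¹ ∘ ⇑a, fun i => (Z2 F).inv_mem (hz _), ?_⟩
          have h9 := C.inv_mem h
          have e9 : (dg F X z * pm F X a)⁻¹ = dg F X (z⁻¹ ∘ ⇑a) * pm F X a⁻¹ := by
            have h8 := pm_dg (F := F) a⁻¹ z⁻¹
            rw [inv_inv] at h8
            rw [_root_.mul_inv_rev, ← map_inv, ← map_inv, h8]
          rwa [e9] at h9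
      rintro x ⟨hx1, hx2⟩
      obtain ⟨_, ⟨z, hz, rfl⟩, _, ⟨σ, hσ, rfl⟩, rfl⟩ := exists_mul_of_sup hn hx1
      obtain ⟨y, hy, hyC⟩ := lift σ (hI2 hσ)
      have hCS : C ≤ S0 := by
        rw [hC, Subgroup.closure_le]
        rintro x (⟨z, hz, hz1, rfl⟩ | hx)
        · exact dgmem z hz hz1
        · exact hx.1
      have h10 : δ (dg F X y * pm F X σ) = 1 := (hCS hyC).2
      have h11 : δ (dg F X z * pm F X σ) = 1 := hx2
      have h12 : dg F X z * pm F X σ = dg F X (z * y⁻¹) * (dg F X y * pm F X σ) := by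
        rw [map_mul, map_inv]; group
      rw [h12]
      refine C.mul_mem (Subgroup.subset_closure (Or.inl ⟨_, fun i => (Z2 F).mul_mem (hz i (Set.mem_univ _)) ((Z2 F).inv_mem (hy i)), ?_, rfl⟩)) hyC
      rw [h12, map_mul, h10, mul_one] at h11
      rw [← dg_det (F := F)]
      exact h11
    · rintro x (⟨z, hz, hz1, rfl⟩ | hx)
      · exact dgmem z hz hz1
      · exact hx.1
    · rintro x (⟨z, hz, hz1, rfl⟩ | hx)
      · exact diagsq z hz hz1
      · exact hx.2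

end Cfsg.Agent.H15.SP
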