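import Mathlib
import Cfsg.Agent.H15_Wt

set_option autoImplicit false
open Module

namespace Cfsg.Agent.H15.Wt

/-- an irreducible representation with commuting operators has degree one -/
theorem irr_comm {G K V : Type*} [Group G] [Field K] [IsAlgClosed K] [AddCommGroup V] [Module K V]
    [FiniteDimensional K V] (ρ : Representation K G V) (hρ : ρ.IsIrreducible)
    (hc : ∀ g h, ρ g * ρ h = ρ h * ρ g) : finrank K V = 1 := by
  have hnt : Nontrivial (Subrepresentation ρ) := hρ.toNontrivial
  have hVnt : Nontrivial V := by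
    by_contra hcon
    rw [not_nontrivial_iff_subsingleton] at hcon
    obtain ⟨a, b, hab⟩ := hnt
    apply hab
    apply Subrepresentation.toSubmodule_injective
    exact Subsingleton.elim _ _
  have hsub : ∀ N : Subrepresentation ρ, N.toSubmodule ≠ ⊥ → N.toSubmodule = ⊤ := by
    intro N hN
    rcases hρ.eq_bot_or_eq_top N with h | h
    · exact absurd (by rw [h]; rfl) hN
    · rw [h]; rfl
  have hscal : ∀ g, ∃ c : K, ∀ v, ρ g v = c • v := by
    intro g
    obtain ⟨c, hcc⟩ := Module.End.exists_eigenvalue (ρ g)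
    refine ⟨c, ?_⟩
    have h1 := hsub ⟨Module.End.eigenspace (ρ g) c, by
      intro h v hv
      rw [Module.End.mem_eigenspace_iff] at hv ⊢
      have := congrArg (fun f : Module.End K V => f v) (hc g h)
      simp only [Module.End.mul_apply] at this
      rw [this, hv, map_smul]⟩ hcc
    intro v
    have h2 : v ∈ Module.End.eigenspace (ρ g) c := by
      rw [show Module.End.eigenspace (ρ g) c = ⊤ from h1]
      trivial
    exact Module.End.mem_eigenspace_iff.mp h2
  obtain ⟨v, hv⟩ := exists_ne (0 : V)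
  have h1 := hsub ⟨Submodule.span K {v}, by
    intro g w hw
    obtain ⟨c, hcc⟩ := hscal g
    rw [hcc]
    exact Submodule.smul_mem _ _ hw⟩ (by
      intro h0
      exact hv (Submodule.span_singleton_eq_bot.mp h0))
  have h2 := finrank_span_singleton (K := K) hv
  rw [show Submodule.span K {v} = ⊤ from h1, finrank_top] at h2
  exact h2

theorem irr_triv {G K V : Type*} [Group G] [Field K] [IsAlgClosed K] [AddCommGroup V] [Module K V]
    [FiniteDimensional K V] (ρ : Representation K G V) (hρ : ρ.IsIrreducible)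
    (hc : ∀ g, ρ g = 1) : finrank K V = 1 :=
  irr_comm ρ hρ (fun g h => by rw [hc g, hc h])

/-- operators commuting up to scalars: the number of distinct commutation characters is at most `dim ^ 2` -/
theorem pair_bound {K V G A : Type*} [Field K] [AddCommGroup V] [Module K V] [FiniteDimensional K V] [Group G]
    (r : G →* Module.End K V) (N : Submodule K V) (hN : N ≠ ⊥) (x : A → G)
    (hx : ∀ a, ∀ v ∈ N, r (x a) v ∈ N) (hx' : ∀ a, ∀ v ∈ N, r (x a)⁻¹ v ∈ N)
    (ω : A → A → K) (hω0 : ∀ a c, ω a c ≠ 0) (hω : ∀ a c, ∀ v ∈ N, r (x a) (r (x c) v) = ω a c • r (x c) (r (x a) v))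
    (S : Finset (A → K)) (hS : ∀ χ ∈ S, ∃ a, ω a = χ) : S.card ≤ (finrank K N) ^ 2 := by
  classical
  let Y : A → Module.End K N := fun a => (r (x a)).restrict (hx a)
  let Z : A → Module.End K N := fun a => (r (x a)⁻¹).restrict (hx' a)
  have hY : ∀ a (v : N), ((Y a v : N) : V) = r (x a) v := fun a v => rfl
  have hZ : ∀ a (v : N), ((Z a v : N) : V) = r (x a)⁻¹ v := fun a v => rfl
  have hYZ : ∀ a, Y a * Z a = 1 := by
    intro a
    apply LinearMap.ext
    intro v
    apply Subtype.ext
    rw [Module.End.mul_apply, hY, hZ, ← Module.End.mul_apply, ← map_mul, mul_inv_cancel, map_one]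
    rfl
  have hZY : ∀ a, Z a * Y a = 1 := by
    intro a
    apply LinearMap.ext
    intro v
    apply Subtype.ext
    rw [Module.End.mul_apply, hZ, hY, ← Module.End.mul_apply, ← map_mul, inv_mul_cancel, map_one]
    rfl
  have hYY : ∀ a c, Y a * Y c = ω a c • (Y c * Y a) := by
    intro a c
    apply LinearMap.ext
    intro v
    apply Subtype.ext
    rw [Module.End.mul_apply, LinearMap.smul_apply, Module.End.mul_apply, Submodule.coe_smul, hY, hY, hY, hY]
    exact hω a c v.1 v.2
  -- the adjoint operators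
  let f : A → Module.End K (Module.End K N) := fun c =>
    (LinearMap.mulLeft K (Z c)).comp (LinearMap.mulRight K (Y c))
  have hf : ∀ c T, f c T = Z c * (T * Y c) := fun c T => rfl
  have hZZ : ∀ a c, Z c * Z a = (ω a c)⁻¹ • (Z a * Z c) := by
    intro a c
    have h1 : (Y a * Y c) * (Z c * Z a) = 1 := by
      rw [mul_assoc, ← mul_assoc (Y c), hYZ, one_mul, hYZ]
    have h2 : (Z a * Z c) * (Y c * Y a) = 1 := by
      rw [mul_assoc, ← mul_assoc (Z c), hZY, one_mul, hZY]
    rw [hYY, smul_mul_assoc] at h1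
    calc Z c * Z a = (Z a * Z c) * (Y c * Y a) * (Z c * Z a) := by rw [h2, one_mul]
      _ = (Z a * Z c) * ((ω a c)⁻¹ • (ω a c • (Y c * Y a * (Z c * Z a)))) := by
        rw [smul_smul, inv_mul_cancel₀ (hω0 a c), one_smul, mul_assoc]
      _ = _ := by rw [h1, mul_smul_comm, mul_one]
  have hcomm : ∀ a b, Commute (f a) (f b) := by
    intro a b
    apply LinearMap.ext
    intro T
    rw [Module.End.mul_apply, Module.End.mul_apply, hf, hf, hf, hf]
    calc Z a * (Z b * (T * Y b) * Y a) = (Z a * Z b) * T * (Y b * Y a) := by simp only [mul_assoc]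
      _ = (Z b * Z a) * T * (Y a * Y b) := by
        rw [hYY b a, hZZ b a, mul_smul_comm, smul_mul_assoc, smul_mul_assoc, smul_smul,
          mul_inv_cancel₀ (hω0 b a), one_smul]
      _ = _ := by simp only [mul_assoc]
  have h1 : ∀ a, Y a ∈ wt f (ω a) := by
    intro a
    rw [mem_wt]
    intro c
    rw [hf, hYY, mul_smul_comm, ← mul_assoc, hZY, one_mul]
  have hNnt : Nontrivial N := Submodule.nontrivial_iff_ne_bot.mpr hN
  have h2 : ∀ a, Y a ≠ 0 := by
    intro a h0
    have := hYZ a
    rw [h0, zero_mul] at this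
    exact zero_ne_one this
  have h3 := sum_finrank_le (wt f) (wt_indep f hcomm) S
  have h4 : ∀ χ ∈ S, 1 ≤ finrank K (wt f χ) := by
    intro χ hχ
    obtain ⟨a, rfl⟩ := hS χ hχ
    rw [Nat.one_le_iff_ne_zero]
    intro h0
    have h5 := Submodule.finrank_eq_zero.mp h0
    have h6 := h1 a
    rw [h5, Submodule.mem_bot] at h6
    exact h2 a h6
  have h5 := Finset.sum_le_sum h4
  rw [Finset.sum_const, smul_eq_mul, mul_one] at h5
  have h6 : finrank K (Module.End K N) = finrank K N ^ 2 := by
    rw [Module.finrank_linearMap, sq]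
  rw [← h6]
  exact h5.trans h3

/-- an additive character of a finite field of characteristic `p` invariant under automorphisms -/
theorem exists_inv_addChar {K F : Type*} [Field K] [IsAlgClosed K] [Field F] [Fintype F] (hchar : ringChar K ≠ ringChar F) :
    ∃ ψ : AddChar F K, ψ ≠ 1 ∧ ∀ (θ : F →+* F) (x : F), ψ (θ x) = ψ x := by
  classical
  obtain ⟨p, hp⟩ := CharP.exists F
  haveI := hp
  haveI hpp : Fact p.Prime := ⟨CharP.char_is_prime F p⟩
  have hpF : ringChar F = p := ringChar.eq_iff.mpr hp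
  letI : Algebra (ZMod p) F := ZMod.algebra F p
  have hK : (p : K) ≠ 0 := by
    intro h0
    have h1 : ringChar K ∣ p := (ringChar.spec K p).mp h0
    rcases (Nat.dvd_prime hpp.out).mp h1 with h2 | h2
    · exact CharP.ringChar_ne_one h2
    · exact hchar (h2.trans hpF.symm)
  haveI : NeZero (p : K) := ⟨hK⟩
  obtain ⟨ζ, hζ⟩ : ∃ ζ : K, IsPrimitiveRoot ζ p := HasEnoughRootsOfUnity.exists_primitiveRoot K p
  have htr : Algebra.trace (ZMod p) F ≠ 0 := Algebra.trace_ne_zero (ZMod p) F
  refine ⟨(AddChar.zmodChar p hζ.pow_eq_one).compAddMonoidHom (Algebra.trace (ZMod p) F).toAddMonoidHom, ?_, ?_⟩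
  · obtain ⟨x, hx⟩ : ∃ x, Algebra.trace (ZMod p) F x ≠ 0 := by
      by_contra hcon
      push Not at hcon
      exact htr (LinearMap.ext hcon)
    intro h
    have h1 : AddChar.zmodChar p hζ.pow_eq_one (Algebra.trace (ZMod p) F x) = 1 := by
      have := congrArg (fun χ : AddChar F K => χ x) h
      simpa using this
    rw [AddChar.zmodChar_apply] at h1
    have h2 := (hζ.pow_eq_one_iff_dvd _).mp h1
    have h3 : (Algebra.trace (ZMod p) F x).val < p := ZMod.val_lt _
    have h4 : (Algebra.trace (ZMod p) F x).val = 0 := Nat.eq_zero_of_dvd_of_lt h2 h3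
    exact hx ((ZMod.val_eq_zero _).mp h4)
  · intro θ x
    have hθ : Function.Bijective θ := ⟨θ.injective, Finite.surjective_of_injective θ.injective⟩
    have hc : ∀ r : ZMod p, θ (algebraMap (ZMod p) F r) = algebraMap (ZMod p) F r := fun r =>
      DFunLike.congr_fun (Subsingleton.elim (θ.comp (algebraMap (ZMod p) F)) (algebraMap (ZMod p) F)) r
    let e : F ≃ₐ[ZMod p] F := AlgEquiv.ofBijective (AlgHom.mk θ hc) hθ
    have h1 : Algebra.trace (ZMod p) F (θ x) = Algebra.trace (ZMod p) F x := Algebra.trace_eq_of_algEquiv e x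
    show AddChar.zmodChar p hζ.pow_eq_one (Algebra.trace (ZMod p) F (θ x)) =
      AddChar.zmodChar p hζ.pow_eq_one (Algebra.trace (ZMod p) F x)
    rw [h1]


section at_point

variable {K V F G E : Type*} [Field K] [AddCommGroup V] [Module K V] [Field F] [Fintype F] [Group G]
  {r : G →* Module.End K V} [AddCommGroup E] [Module F E] {u : E → G} {ψ : AddChar F K}

/-- if `u x₀` acts non-trivially then a functional not vanishing at `x₀` occurs -/
theorem exists_W_at [IsAlgClosed K] [FiniteDimensional K V] [Finite E] (hchar : ringChar K ≠ ringChar F)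
    (hψ : ψ ≠ 1) (hu : ∀ x y, u (x + y) = u x * u y) (x₀ : E) (hnt : r (u x₀) ≠ 1) :
    ∃ φ : E →ₗ[F] F, φ x₀ ≠ 0 ∧ W r u ψ φ ≠ ⊥ := by
  obtain ⟨χ, hχ, hχx⟩ := exists_wt (fun x => r (u x)) (comm_of_add hu) (ringChar F) (cast_ne_zero hchar) (by
    intro a
    rw [← map_pow, ← u_nsmul hu]
    have : (ringChar F) • a = 0 := by
      rw [← Nat.cast_smul_eq_nsmul F, ringChar.Nat.cast_ringChar, zero_smul]
    rw [this, u_zero hu, map_one]) x₀ hnt
  let χ' : AddChar E K :=
    { toFun := χ
      map_zero_eq_one' := wt_one _ hχ (by simp only [u_zero hu, map_one])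
      map_add_eq_mul' := fun a b => wt_mul _ hχ (by simp only [hu, map_mul]) }
  obtain ⟨φ, hφ⟩ := addChar_eq ψ hψ χ'
  refine ⟨φ, ?_, ?_⟩
  · intro h0
    apply hχx
    have := hφ x₀
    rw [h0, AddChar.map_zero_eq_one] at this
    exact this
  · have : (fun x => ψ (φ x)) = χ := by
      funext x
      exact (hφ x).symm
    rw [W, this]
    exact hχ

theorem main_bound_at [IsAlgClosed K] [FiniteDimensional K V] [Finite E] (hchar : ringChar K ≠ ringChar F)
    (hu : ∀ x y, u (x + y) = u x * u y) (x₀ : E) (hnt : r (u x₀) ≠ 1) :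
    ∃ φ : E →ₗ[F] F, φ x₀ ≠ 0 ∧ ∀ S : Finset (E →ₗ[F] F),
      (∀ φ' ∈ S, ∃ (g : G) (α : E → E), (∀ x, u x * g = g * u (α x)) ∧ ∀ x, φ' x = φ (α x)) →
        S.card ≤ finrank K V := by
  obtain ⟨ψ, hψ⟩ := exists_addChar (K := K) (F := F) hchar
  obtain ⟨φ, hφ, hW⟩ := exists_W_at (r := r) hchar hψ hu x₀ hnt
  refine ⟨φ, hφ, fun S hS => ?_⟩
  have h1 : 1 ≤ finrank K (W r u ψ φ) := by
    rw [Nat.one_le_iff_ne_zero]
    intro h0
    exact hW (Submodule.finrank_eq_zero.mp h0)
  have h2 := W_bound (r := r) hψ hu (Ω := S) (fun φ' => φ'.1) Subtype.val_injective 1 (fun ω => by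
    obtain ⟨g, α, hg, hα⟩ := hS ω.1 ω.2
    exact h1.trans (finrank_W_le g α hg hα))
  rwa [mul_one, Fintype.card_coe] at h2

end at_point

end Cfsg.Agent.H15.Wt
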