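import Mathlib
import Cfsg.Agent.H15_Bruhat
import Cfsg.Agent.H15_Wt

set_option autoImplicit false
open Matrix Module

namespace Cfsg.Agent.H15.WtSL

open Cfsg.Agent.H15.Bruhat

variable {F : Type*} [Field F] {m : ℕ}

theorem det_ins (c : F) (M : Matrix (Fin m) (Fin m) F) : (ins 0 0 c M).det = c * M.det := by
  rw [Matrix.det_succ_row_zero, Fin.sum_univ_succ, Finset.sum_eq_zero, add_zero]
  · have h1 : (ins 0 0 c M).submatrix Fin.succ (Fin.succAbove 0) = M := by
      ext a b
      rw [Matrix.submatrix_apply]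
      exact ins_ab 0 0 c M a b
    rw [h1, ins_ii]
    simp
  · intro a _
    have h1 : ins 0 0 c M 0 a.succ = 0 := ins_ia 0 0 c M a
    rw [h1]
    ring

/-- the root group of row vectors -/
def urow (x : Fin m → F) : Matrix (Fin (m + 1)) (Fin (m + 1)) F :=
  1 + Matrix.vecMulVec (Pi.single 0 1) (Fin.cons 0 x : Fin (m + 1) → F)

theorem det_urow (x : Fin m → F) : (urow x).det = 1 := by
  rw [urow, Matrix.vecMulVec_eq (Fin 1), Matrix.det_one_add_replicateCol_mul_replicateRow]
  simp

theorem urow_add (x y : Fin m → F) : urow (x + y) = urow x * urow y := by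
  have h : (Fin.cons 0 (x + y) : Fin (m + 1) → F) = (Fin.cons 0 x : Fin (m + 1) → F) + (Fin.cons 0 y : Fin (m + 1) → F) := by
    ext i
    refine Fin.cases ?_ (fun j => ?_) i <;> simp
  have h2 : Matrix.vecMulVec (Pi.single 0 1 : Fin (m + 1) → F) (Fin.cons 0 x : Fin (m + 1) → F) *
      Matrix.vecMulVec (Pi.single 0 1 : Fin (m + 1) → F) (Fin.cons 0 y : Fin (m + 1) → F) = 0 := by
    rw [Matrix.vecMulVec_mul_vecMulVec]
    simp
  rw [urow, urow, urow, h, Matrix.vecMulVec_add, Matrix.mul_add, Matrix.add_mul, Matrix.add_mul, h2]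
  simp [add_assoc]

theorem urow_ins (x : Fin m → F) (M : Matrix (Fin m) (Fin m) F) :
    urow x * ins 0 0 1 M = ins 0 0 1 M * urow (x ᵥ* M) := by
  rw [urow, urow, Matrix.mul_add, Matrix.add_mul, Matrix.mul_one, Matrix.one_mul, Matrix.vecMulVec_mul, Matrix.mul_vecMulVec]
  congr 1
  have h1 : (ins 0 0 1 M) *ᵥ (Pi.single 0 1) = (Pi.single 0 1 : Fin (m + 1) → F) := by
    ext i
    rw [Matrix.mulVec_single_one]
    refine Fin.cases ?_ (fun j => ?_) i
    · simp [Matrix.col]
    · have := ins_ai 0 0 1 M j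
      simpa [Matrix.col] using this
  have h2 : (Fin.cons 0 x : Fin (m + 1) → F) ᵥ* (ins 0 0 1 M) = Fin.cons 0 (x ᵥ* M) := by
    ext i
    rw [Matrix.vecMul, dotProduct, Fin.sum_univ_succ]
    refine Fin.cases ?_ (fun j => ?_) i
    · have := fun a => ins_ai 0 0 1 M a
      simp only [Fin.succAbove_zero] at this
      simp [this]
    · have := fun a => ins_ab 0 0 1 M a j
      simp only [Fin.succAbove_zero] at this
      simp [this, Matrix.vecMul, dotProduct]
  rw [h1, h2]


theorem move_aux {y z : Fin m → F} (h : y ∉ Submodule.span F ({z - y} : Set (Fin m → F))) :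
    ∃ M : Matrix (Fin m) (Fin m) F, M.det = 1 ∧ M *ᵥ y = z := by
  obtain ⟨f, hf, hf2⟩ := Submodule.exists_dual_map_eq_bot_of_notMem h inferInstance
  have hf3 : f (z - y) = 0 := by
    have : f (z - y) ∈ (Submodule.span F ({z - y} : Set (Fin m → F))).map f :=
      Submodule.mem_map_of_mem (Submodule.mem_span_singleton_self _)
    rw [hf2] at this
    simpa using this
  set g : Fin m → F := (f y)⁻¹ • (dotProductEquiv F (Fin m)).symm f with hg
  have hg2 : ∀ x, g ⬝ᵥ x = (f y)⁻¹ * f x := by
    intro x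
    rw [hg, smul_dotProduct, smul_eq_mul]
    congr 1
    have := (dotProductEquiv F (Fin m)).apply_symm_apply f
    exact congrArg (fun t : Module.Dual F (Fin m → F) => t x) this
  refine ⟨1 + Matrix.vecMulVec (z - y) g, ?_, ?_⟩
  · rw [Matrix.vecMulVec_eq (Fin 1), Matrix.det_one_add_replicateCol_mul_replicateRow, hg2, hf3]
    simp
  · rw [Matrix.add_mulVec, Matrix.one_mulVec, Matrix.vecMulVec_mulVec, hg2, inv_mul_cancel₀ hf]
    simp

theorem move (hm : 2 ≤ m) {y z : Fin m → F} (hy : y ≠ 0) (hz : z ≠ 0) :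
    ∃ M : Matrix (Fin m) (Fin m) F, M.det = 1 ∧ M *ᵥ y = z := by
  by_cases h : y ∉ Submodule.span F ({z - y} : Set (Fin m → F))
  · exact move_aux h
  push Not at h
  obtain ⟨c, hc⟩ := Submodule.mem_span_singleton.mp h
  have hc0 : c ≠ 0 := by
    rintro rfl
    rw [zero_smul] at hc
    exact hy hc.symm
  have hzy : z = (c⁻¹ + 1) • y := by
    rw [add_smul, one_smul]
    nth_rewrite 1 [← hc]
    rw [smul_smul, inv_mul_cancel₀ hc0, one_smul, sub_add_cancel]
  obtain ⟨w, hw⟩ : ∃ w : Fin m → F, w ∉ Submodule.span F ({y} : Set (Fin m → F)) := by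
    by_contra hcon
    push Not at hcon
    have h1 : Submodule.span F ({y} : Set (Fin m → F)) = ⊤ := by
      rw [eq_top_iff]
      intro w _
      exact hcon w
    have h2 := finrank_span_singleton (K := F) hy
    rw [h1, finrank_top, Module.finrank_fin_fun] at h2
    omega
  have hw0 : w ≠ 0 := by
    rintro rfl
    exact hw (Submodule.zero_mem _)
  obtain ⟨M, hM, hM2⟩ := move_aux (y := y) (z := w) (by
    intro hcon
    obtain ⟨d, hd⟩ := Submodule.mem_span_singleton.mp hcon
    apply hw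
    rw [Submodule.mem_span_singleton]
    have hd0 : d ≠ 0 := by
      rintro rfl
      rw [zero_smul] at hd
      exact hy hd.symm
    refine ⟨d⁻¹ + 1, ?_⟩
    rw [add_smul, one_smul]
    nth_rewrite 1 [← hd]
    rw [smul_smul, inv_mul_cancel₀ hd0, one_smul, sub_add_cancel])
  obtain ⟨N, hN, hN2⟩ := move_aux (y := w) (z := z) (by
    intro hcon
    obtain ⟨d, hd⟩ := Submodule.mem_span_singleton.mp hcon
    have h1 : (1 + d) • w = d • z := by
      rw [add_smul, one_smul]
      nth_rewrite 1 [← hd]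
      rw [smul_sub, sub_add_cancel]
    by_cases hd1 : 1 + d = 0
    · rw [hd1, zero_smul] at h1
      rcases smul_eq_zero.mp h1.symm with h2 | h2
      · rw [h2, add_zero] at hd1
        exact one_ne_zero hd1
      · exact hz h2
    · apply hw
      rw [Submodule.mem_span_singleton]
      refine ⟨(1 + d)⁻¹ * (d * (c⁻¹ + 1)), ?_⟩
      rw [mul_smul, mul_smul, ← hzy, ← h1, smul_smul, inv_mul_cancel₀ hd1, one_smul])
  exact ⟨N * M, by rw [Matrix.det_mul, hM, hN, one_mul], by rw [← Matrix.mulVec_mulVec, hM2, hN2]⟩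

variable [Fintype F]

/-- representations over algebraically closed fields -/
theorem bound {K V : Type*} [Field K] [IsAlgClosed K] [AddCommGroup V] [Module K V] [FiniteDimensional K V]
    (hK : ringChar K ≠ ringChar F) (hm : 2 ≤ m)
    (r : Matrix.SpecialLinearGroup (Fin (m + 1)) F →* Module.End K V)
    (hr : ∃ x : Fin m → F, r ⟨urow x, det_urow x⟩ ≠ 1) :
    Fintype.card F ^ m - 1 ≤ finrank K V := by
  classical
  obtain ⟨φ, hφ, h⟩ := Wt.main_bound (r := r) (u := fun x : Fin m → F => ⟨urow x, det_urow x⟩) hK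
    (fun x y => Subtype.ext (urow_add x y)) hr
  set y : Fin m → F := (dotProductEquiv F (Fin m)).symm φ with hy
  have hyx : ∀ x, φ x = y ⬝ᵥ x := by
    intro x
    have := (dotProductEquiv F (Fin m)).apply_symm_apply φ
    exact (congrArg (fun t : Module.Dual F (Fin m → F) => t x) this).symm
  have hy0 : y ≠ 0 := by
    rw [hy]
    simpa using hφ
  have h1 := h (Ω := {z : Fin m → F // z ≠ 0}) (fun z => dotProductEquiv F (Fin m) z.1)
    (fun a b hab => Subtype.ext ((dotProductEquiv F (Fin m)).injective hab)) (by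
      rintro ⟨z, hz⟩
      obtain ⟨M, hM, hMz⟩ := move hm hy0 hz
      refine ⟨⟨ins 0 0 1 M, by rw [det_ins, hM, mul_one]⟩, fun x => x ᵥ* M, ?_, ?_⟩
      · intro x
        exact Subtype.ext (urow_ins x M)
      · intro x
        show z ⬝ᵥ x = φ (x ᵥ* M)
        rw [hyx, ← hMz, dotProduct_comm, dotProduct_mulVec, dotProduct_comm])
  refine le_trans ?_ h1
  rw [Fintype.card_subtype_compl, Fintype.card_subtype_eq, Fintype.card_fun, Fintype.card_fin]

end Cfsg.Agent.H15.WtSL
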