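import Mathlib
import Cfsg.Agent.H15_Wt
import Cfsg.Agent.H15_WtSL
import Cfsg.Agent.H15_LawsCl
import Cfsg.Agent.H5_Symp

set_option autoImplicit false
open Matrix Module

namespace Cfsg.Agent.H15.WtSp

universe u₁ u₂

variable {F : Type*} [Field F] {m : ℕ}

/-- symmetric matrices -/
def Sym (m : ℕ) (F : Type*) [Field F] : Submodule F (Matrix (Fin m) (Fin m) F) where
  carrier := {B | B.transpose = B}
  add_mem' := by
    intro a b ha hb
    simp only [Set.mem_setOf_eq, Matrix.transpose_add] at *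
    rw [ha, hb]
  zero_mem' := by simp
  smul_mem' := by
    intro c a ha
    simp only [Set.mem_setOf_eq, Matrix.transpose_smul] at *
    rw [ha]

theorem mem_Sym {B : Matrix (Fin m) (Fin m) F} : B ∈ Sym m F ↔ B.transpose = B := Iff.rfl

/-- unipotent elements -/
def us (B : Sym m F) : Matrix.symplecticGroup (Fin m) F := Cfsg.Agent.H15.LawsCl.uniSp B.1 B.2

theorem us_coe (B : Sym m F) : ((us B : Matrix.symplecticGroup (Fin m) F) : Matrix (Fin m ⊕ Fin m) (Fin m ⊕ Fin m) F) =
    Matrix.fromBlocks 1 B.1 0 1 := rfl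

theorem us_add (B C : Sym m F) : us (B + C) = us B * us C := by
  apply Subtype.ext
  rw [Submonoid.coe_mul, us_coe, us_coe, us_coe, Matrix.fromBlocks_multiply]
  simp [add_comm]

/-- the action -/
def al (M : Matrix (Fin m) (Fin m) F) : Sym m F →ₗ[F] Sym m F where
  toFun B := ⟨M * B.1 * M.transpose, by
    have := B.2
    rw [mem_Sym] at this ⊢
    rw [Matrix.transpose_mul, Matrix.transpose_mul, Matrix.transpose_transpose, this, Matrix.mul_assoc]⟩
  map_add' a b := Subtype.ext (by simp [Matrix.mul_add, Matrix.add_mul])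
  map_smul' c a := Subtype.ext (by simp)

theorem al_coe (M : Matrix (Fin m) (Fin m) F) (B : Sym m F) : (al M B).1 = M * B.1 * M.transpose := rfl

theorem us_levi (g : GL (Fin m) F) (B : Sym m F) :
    us B * Cfsg.Agent.H15.LawsCl.leviSp F m g⁻¹ = Cfsg.Agent.H15.LawsCl.leviSp F m g⁻¹ * us (al g.1 B) := by
  apply Subtype.ext
  have h : ((Cfsg.Agent.H15.LawsCl.leviSp F m g⁻¹ : Matrix.symplecticGroup (Fin m) F) :
    Matrix (Fin m ⊕ Fin m) (Fin m ⊕ Fin m) F) = Matrix.fromBlocks (g⁻¹).1 0 0 (((g⁻¹)⁻¹ : GL (Fin m) F).1).transpose := rfl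
  rw [Submonoid.coe_mul, Submonoid.coe_mul, h, us_coe, us_coe, Matrix.fromBlocks_multiply,
    Matrix.fromBlocks_multiply, al_coe, inv_inv]
  have h2 : (g⁻¹).1 * g.1 = 1 := by rw [← Units.val_mul, inv_mul_cancel, Units.val_one]
  simp only [Matrix.one_mul, Matrix.mul_zero, Matrix.zero_mul, zero_add, add_zero, Matrix.mul_one]
  rw [← Matrix.mul_assoc, ← Matrix.mul_assoc, h2, Matrix.one_mul]

theorem us_levi' (M : Matrix (Fin m) (Fin m) F) (hM : M.det = 1) :
    ∃ g : Matrix.symplecticGroup (Fin m) F, ∀ B, us B * g = g * us (al M B) :=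
  ⟨_, us_levi (Matrix.GeneralLinearGroup.mkOfDetNeZero M (by rw [hM]; exact one_ne_zero))⟩

def sq (x : Fin m → F) : Sym m F := ⟨Matrix.vecMulVec x x, by
  rw [mem_Sym, Matrix.transpose_vecMulVec]⟩

def sy (x y : Fin m → F) : Sym m F := ⟨Matrix.vecMulVec x y + Matrix.vecMulVec y x, by
  rw [mem_Sym, Matrix.transpose_add, Matrix.transpose_vecMulVec, Matrix.transpose_vecMulVec, add_comm]⟩

theorem sq_coe (x : Fin m → F) : (sq x).1 = Matrix.vecMulVec x x := rfl
theorem sy_coe (x y : Fin m → F) : (sy x y).1 = Matrix.vecMulVec x y + Matrix.vecMulVec y x := rfl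

theorem al_sq (M : Matrix (Fin m) (Fin m) F) (x : Fin m → F) : al M (sq x) = sq (M *ᵥ x) := by
  apply Subtype.ext
  rw [al_coe, sq_coe, sq_coe, Matrix.mul_vecMulVec, Matrix.vecMulVec_mul, Matrix.vecMul_transpose]

theorem al_sy (M : Matrix (Fin m) (Fin m) F) (x y : Fin m → F) : al M (sy x y) = sy (M *ᵥ x) (M *ᵥ y) := by
  apply Subtype.ext
  rw [al_coe, sy_coe, sy_coe, Matrix.mul_add, Matrix.add_mul, Matrix.mul_vecMulVec, Matrix.vecMulVec_mul,
    Matrix.mul_vecMulVec, Matrix.vecMulVec_mul, Matrix.vecMul_transpose, Matrix.vecMul_transpose]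

theorem sq_add (x y : Fin m → F) : sq (x + y) = sq x + sq y + sy x y := by
  apply Subtype.ext
  show Matrix.vecMulVec (x + y) (x + y) = Matrix.vecMulVec x x + Matrix.vecMulVec y y +
    (Matrix.vecMulVec x y + Matrix.vecMulVec y x)
  rw [Matrix.vecMulVec_add, Matrix.add_vecMulVec, Matrix.add_vecMulVec]
  abel

theorem sq_smul (c : F) (x : Fin m → F) : sq (c • x) = (c * c) • sq x := by
  apply Subtype.ext
  show Matrix.vecMulVec (c • x) (c • x) = (c * c) • Matrix.vecMulVec x x
  rw [Matrix.vecMulVec_smul, Matrix.smul_vecMulVec, smul_smul]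

theorem sy_add_left (x x' y : Fin m → F) : sy (x + x') y = sy x y + sy x' y := by
  apply Subtype.ext
  show Matrix.vecMulVec (x + x') y + Matrix.vecMulVec y (x + x') = (Matrix.vecMulVec x y + Matrix.vecMulVec y x) +
    (Matrix.vecMulVec x' y + Matrix.vecMulVec y x')
  rw [Matrix.vecMulVec_add, Matrix.add_vecMulVec]
  abel

theorem sy_smul_left (c : F) (x y : Fin m → F) : sy (c • x) y = c • sy x y := by
  apply Subtype.ext
  show Matrix.vecMulVec (c • x) y + Matrix.vecMulVec y (c • x) = c • (Matrix.vecMulVec x y + Matrix.vecMulVec y x)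
  rw [Matrix.vecMulVec_smul, Matrix.smul_vecMulVec, smul_add]

theorem sy_comm (x y : Fin m → F) : sy x y = sy y x := Subtype.ext (add_comm _ _)

theorem sy_self (x : Fin m → F) : sy x x = (2 : F) • sq x := by
  apply Subtype.ext
  show Matrix.vecMulVec x x + Matrix.vecMulVec x x = (2 : F) • Matrix.vecMulVec x x
  rw [two_smul]

theorem ext_sq {φ φ' : Sym m F →ₗ[F] F} (h : ∀ x, φ (sq x) = φ' (sq x)) : φ = φ' := by
  have h1 : ∀ x y, φ (sy x y) = φ' (sy x y) := by
    intro x y
    have h1 := h (x + y)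
    rw [sq_add, map_add, map_add, map_add, map_add, h x, h y] at h1
    exact add_left_cancel h1
  let S : Matrix (Fin m) (Fin m) F →ₗ[F] Sym m F :=
    { toFun := fun X => ⟨X + X.transpose, by
        rw [mem_Sym, Matrix.transpose_add, Matrix.transpose_transpose, add_comm]⟩
      map_add' := fun a b => Subtype.ext (by simp only [Matrix.transpose_add, Submodule.coe_add]; abel)
      map_smul' := fun c a => Subtype.ext (by simp) }
  have h2 : ∀ i j c, φ (S (Matrix.single i j c)) = φ' (S (Matrix.single i j c)) := by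
    intro i j c
    have h3 : S (Matrix.single i j c) = sy (Pi.single i c) (Pi.single j 1) := by
      apply Subtype.ext
      rw [sy_coe]
      show Matrix.single i j c + (Matrix.single i j c).transpose = _
      have h4 : Matrix.single i j c = Matrix.vecMulVec (Pi.single i c) (Pi.single j 1) := by
        ext a b
        rw [Matrix.vecMulVec_apply, Matrix.single_apply, Pi.single_apply, Pi.single_apply]
        by_cases h1 : i = a <;> by_cases h2 : j = b <;> simp [h1, h2, eq_comm]
      rw [h4, Matrix.transpose_vecMulVec]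
    rw [h3, h1]
  have h3 : ∀ X, φ (S X) = φ' (S X) := by
    intro X
    rw [Matrix.matrix_eq_sum_single X]
    simp only [map_sum, h2]
  have h4 : ∀ (i : Fin m) (c : F), φ (c • sq (Pi.single i (1 : F))) = φ' (c • sq (Pi.single i (1 : F))) := by
    intro i c
    rw [map_smul, map_smul, h]
  apply LinearMap.ext
  intro B
  have h5 : B = S (Matrix.of fun i j => if j < i then B.1 i j else 0) + ∑ i, B.1 i i • sq (Pi.single i (1 : F)) := by
    apply Subtype.ext
    ext a b
    rw [Submodule.coe_add, Submodule.coe_sum, Matrix.add_apply, Matrix.sum_apply]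
    have h6 : ∑ c, ((B.1 c c • sq (Pi.single c (1 : F)) : Sym m F) : Matrix (Fin m) (Fin m) F) a b =
        if a = b then B.1 a a else 0 := by
      by_cases hab : a = b
      · subst hab
        rw [if_pos rfl, Finset.sum_eq_single a]
        · simp [sq_coe, Matrix.vecMulVec_apply]
        · intro c _ hc
          simp [sq_coe, Matrix.vecMulVec_apply, Pi.single_apply, hc.symm]
        · intro h; exact absurd (Finset.mem_univ _) h
      · rw [if_neg hab]
        apply Finset.sum_eq_zero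
        intro c _
        by_cases hc : a = c
        · subst hc
          simp [sq_coe, Matrix.vecMulVec_apply, Pi.single_apply, (Ne.symm hab : b ≠ a)]
        · simp [sq_coe, Matrix.vecMulVec_apply, Pi.single_apply, hc]
    rw [h6]
    show B.1 a b = ((if b < a then B.1 a b else 0) + (if a < b then B.1 b a else 0)) + _
    have h7 : B.1 b a = B.1 a b := congrFun (congrFun B.2 a) b
    rcases lt_trichotomy a b with hab | hab | hab
    · rw [if_neg (not_lt.mpr hab.le), if_pos hab, if_neg hab.ne, h7]; simp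
    · subst hab; simp
    · rw [if_pos hab, if_neg (not_lt.mpr hab.le), if_neg hab.ne']; simp
  rw [h5, map_add, map_add, h3, map_sum, map_sum]
  simp only [h4]

theorem al_mul_ext {φ : Sym m F →ₗ[F] F} (M : Matrix (Fin m) (Fin m) F) (x : Fin m → F) :
    (φ ∘ₗ al M) (sq x) = φ (sq (M *ᵥ x)) := by
  rw [LinearMap.comp_apply, al_sq]

theorem al_sy_ext {φ : Sym m F →ₗ[F] F} (M : Matrix (Fin m) (Fin m) F) (x y : Fin m → F) :
    (φ ∘ₗ al M) (sy x y) = φ (sy (M *ᵥ x) (M *ᵥ y)) := by
  rw [LinearMap.comp_apply, al_sy]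

/-- the vector representing `x ↦ φ (sy x v)` -/
noncomputable def pv (φ : Sym m F →ₗ[F] F) (v : Fin m → F) : Fin m → F :=
  (dotProductEquiv F (Fin m)).symm
    { toFun := fun x => φ (sy x v)
      map_add' := fun x y => by rw [sy_add_left, map_add]
      map_smul' := fun c x => by rw [sy_smul_left, map_smul]; rfl }

theorem pv_dot (φ : Sym m F →ₗ[F] F) (v x : Fin m → F) : pv φ v ⬝ᵥ x = φ (sy x v) := by
  set f : Module.Dual F (Fin m → F) := { toFun := fun x => φ (sy x v)
                                         map_add' := fun x y => by rw [sy_add_left, map_add]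
                                         map_smul' := fun c x => by rw [sy_smul_left, map_smul]; rfl } with hf
  have := (dotProductEquiv F (Fin m)).apply_symm_apply f
  exact congrArg (fun t : Module.Dual F (Fin m → F) => t x) this

theorem pair_move (hm : 2 ≤ m) {v v' f f' : Fin m → F} {c : F} (hc : c ≠ 0) (h : f ⬝ᵥ v = c)
    (h' : f' ⬝ᵥ v' = c) : ∃ M : Matrix (Fin m) (Fin m) F, M.det = 1 ∧ M *ᵥ v = v' ∧ f' ᵥ* M = f := by
  have hv : v ≠ 0 := by
    rintro rfl
    rw [dotProduct_zero] at h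
    exact hc h.symm
  have hv' : v' ≠ 0 := by
    rintro rfl
    rw [dotProduct_zero] at h'
    exact hc h'.symm
  obtain ⟨M, hM, hMv⟩ := WtSL.move hm hv hv'
  have h2 : (f' ᵥ* M) ⬝ᵥ v = c := by
    rw [← Matrix.dotProduct_mulVec, hMv, h']
  refine ⟨M * (1 + Matrix.vecMulVec v (c⁻¹ • (f - f' ᵥ* M))), ?_, ?_, ?_⟩
  · rw [Matrix.det_mul, hM, Matrix.vecMulVec_eq (Fin 1), Matrix.det_one_add_replicateCol_mul_replicateRow,
      smul_dotProduct, sub_dotProduct, h, h2]
    simp
  · rw [← Matrix.mulVec_mulVec, Matrix.add_mulVec, Matrix.one_mulVec, Matrix.vecMulVec_mulVec,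
      smul_dotProduct, sub_dotProduct, h, h2]
    simp [hMv]
  · rw [← Matrix.vecMul_vecMul, Matrix.vecMul_add, Matrix.vecMul_one, Matrix.vecMul_vecMulVec, h2, smul_smul,
      mul_inv_cancel₀ hc, one_smul, add_sub_cancel]

/-- product of two non-zero functionals is non-zero -/
theorem dot_mul_dot {a b : Fin m → F} (h : ∀ x, (a ⬝ᵥ x) * (b ⬝ᵥ x) = 0) : a = 0 ∨ b = 0 := by
  by_contra hcon
  push Not at hcon
  obtain ⟨i, hi⟩ := Function.ne_iff.mp hcon.1
  obtain ⟨j, hj⟩ := Function.ne_iff.mp hcon.2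
  simp only [Pi.zero_apply] at hi hj
  have h1 := h (Pi.single i 1)
  have h2 := h (Pi.single j 1)
  have h3 := h (Pi.single i 1 + Pi.single j 1)
  simp only [dotProduct_add, dotProduct_single_one] at h1 h2 h3
  have h4 : b i = 0 := (mul_eq_zero.mp h1).resolve_left hi
  have h5 : a j = 0 := (mul_eq_zero.mp h2).resolve_right hj
  rw [h4, h5, add_zero, zero_add] at h3
  rcases mul_eq_zero.mp h3 with h6 | h6
  · exact hi h6
  · exact hj h6

variable [Fintype F]

open Classical in
/-- the bound for the orbit of a functional, odd characteristic -/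
theorem odd_bound {k : ℕ} (hk : 1 ≤ k) (hodd : Odd (Fintype.card F)) {φ : Sym (k + 1) F →ₗ[F] F} (hφ : φ ≠ 0) (d : ℕ)
    (hd : ∀ S : Finset (Sym (k + 1) F →ₗ[F] F), (∀ φ' ∈ S, ∃ M : Matrix (Fin (k + 1)) (Fin (k + 1)) F,
      M.det = 1 ∧ φ' = φ ∘ₗ al M) → S.card ≤ d) : Fintype.card F ^ (k + 1) - 1 ≤ 2 * d := by
  have h2 : (2 : F) ≠ 0 := by
    intro h0
    have h1 : ringChar F ∣ 2 := (ringChar.spec F 2).mp (by exact_mod_cast h0)
    have h3 : ringChar F = 2 := by
      rcases (Nat.dvd_prime Nat.prime_two).mp h1 with h3 | h3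
      · exact absurd h3 CharP.ringChar_ne_one
      · exact h3
    have h4 := FiniteField.even_card_of_char_two h3
    rw [Nat.odd_iff] at hodd
    omega
  obtain ⟨v, hv⟩ : ∃ v, φ (sq v) ≠ 0 := by
    by_contra hcon
    push Not at hcon
    exact hφ (ext_sq (fun x => by rw [hcon x, LinearMap.zero_apply]))
  by_cases huniv : ∀ c : F, c ≠ 0 → ∃ x, φ (sq x) = c
  · have key : ∀ p : {c : F // c ≠ 0} × (Fin k → F), ∃ M : Matrix (Fin (k + 1)) (Fin (k + 1)) F, M.det = 1 ∧
        ∀ x, (φ ∘ₗ al M) (sy x (Pi.single 0 1)) = (Fin.cons p.1.1 p.2 : Fin (k + 1) → F) ⬝ᵥ x := by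
      rintro ⟨⟨c, hc⟩, t⟩
      obtain ⟨w, hw⟩ := huniv (c / 2) (div_ne_zero hc h2)
      have hw2 : pv φ w ⬝ᵥ w = c := by
        rw [pv_dot, sy_self, map_smul, hw, smul_eq_mul, mul_div_cancel₀ _ h2]
      obtain ⟨M, hM, hM1, hM2⟩ := pair_move (m := k + 1) (by omega) (v := Pi.single 0 1)
        (f := (Fin.cons c t : Fin (k + 1) → F)) hc (by simp) hw2
      refine ⟨M, hM, ?_⟩
      intro x
      rw [al_sy_ext, hM1, ← pv_dot, Matrix.dotProduct_mulVec, hM2]
    choose M hM1 hM2 using key
    have h3 := hd (Finset.univ.image (fun p => φ ∘ₗ al (M p))) (by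
      intro φ' hφ'
      obtain ⟨p, _, rfl⟩ := Finset.mem_image.mp hφ'
      exact ⟨M p, hM1 p, rfl⟩)
    rw [Finset.card_image_of_injective _ (by
      rintro ⟨⟨c, hc⟩, t⟩ ⟨⟨c', hc'⟩, t'⟩ hpp
      have h4 : ∀ x, (Fin.cons c t : Fin (k + 1) → F) ⬝ᵥ x = (Fin.cons c' t' : Fin (k + 1) → F) ⬝ᵥ x := by
        intro x
        rw [← hM2 ⟨⟨c, hc⟩, t⟩ x, ← hM2 ⟨⟨c', hc'⟩, t'⟩ x]
        exact congrArg (fun t : Sym (k + 1) F →ₗ[F] F => t (sy x (Pi.single 0 1))) hpp
      have h5 := dotProduct_eq _ _ h4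
      obtain ⟨h6, h7⟩ := Fin.cons_inj.mp h5
      subst h6; subst h7
      rfl), Finset.card_univ, Fintype.card_prod, Fintype.card_subtype_compl, Fintype.card_subtype_eq,
      Fintype.card_fun, Fintype.card_fin] at h3
    have hq : 3 ≤ Fintype.card F := by
      have := Fintype.one_lt_card (α := F)
      obtain ⟨r, hr⟩ := hodd
      omega
    rw [pow_succ]
    set q := Fintype.card F
    set Y := q ^ k
    have : Y * q ≤ 2 * ((q - 1) * Y) := by
      have h6 : q ≤ 2 * (q - 1) := by omega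
      calc Y * q ≤ Y * (2 * (q - 1)) := Nat.mul_le_mul_left _ h6
        _ = 2 * ((q - 1) * Y) := by ring
    omega
  · push Not at huniv
    obtain ⟨c, hc, hcx⟩ := huniv
    have hfv : pv φ v ⬝ᵥ v ≠ 0 := by
      rw [pv_dot, sy_self, map_smul, smul_eq_mul]
      exact mul_ne_zero h2 hv
    have hiso : ∀ w, pv φ v ⬝ᵥ w = 0 → φ (sq w) = 0 := by
      intro w hw
      by_contra hne
      obtain ⟨a, b, hab⟩ := FiniteField.exists_root_sum_quadratic
        (f := Polynomial.C (φ (sq v)) * Polynomial.X ^ 2 - Polynomial.C c)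
        (g := Polynomial.C (φ (sq w)) * Polynomial.X ^ 2) (by
          rw [sub_eq_add_neg, ← Polynomial.C_neg]
          have : Polynomial.C (φ (sq v)) * Polynomial.X ^ 2 + Polynomial.C (-c) =
            Polynomial.C (φ (sq v)) * Polynomial.X ^ 2 + Polynomial.C 0 * Polynomial.X + Polynomial.C (-c) := by simp
          rw [this]
          exact Polynomial.degree_quadratic hv) (Polynomial.degree_C_mul_X_pow 2 hne) (Nat.odd_iff.mp hodd)
      simp only [Polynomial.eval_sub, Polynomial.eval_mul, Polynomial.eval_C, Polynomial.eval_pow,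
        Polynomial.eval_X] at hab
      apply hcx (a • v + b • w)
      rw [sq_add, map_add, map_add, sq_smul, sq_smul, map_smul, map_smul, sy_smul_left, map_smul,
        sy_comm v, sy_smul_left, map_smul, ← pv_dot, hw]
      simp only [smul_eq_mul, mul_zero, add_zero]
      linear_combination hab
    set f := pv φ v with hf
    have hsq : ∀ x, φ (sq x) = φ (sq v) / (f ⬝ᵥ v) ^ 2 * (f ⬝ᵥ x) ^ 2 := by
      intro x
      set t := (f ⬝ᵥ x) / (f ⬝ᵥ v) with ht
      have h5 : x = t • v + (x - t • v) := by abel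
      have h6 : f ⬝ᵥ (x - t • v) = 0 := by
        rw [dotProduct_sub, dotProduct_smul, smul_eq_mul, ht, div_mul_cancel₀ _ hfv, sub_self]
      rw [h5, sq_add, map_add, map_add, hiso _ h6, sq_smul, map_smul, sy_smul_left, map_smul, sy_comm, ← pv_dot,
        ← hf, h6, ← h5, smul_zero, add_zero, add_zero, ht, smul_eq_mul]
      ring
    have hf0 : f ≠ 0 := by
      rintro h0
      rw [h0, zero_dotProduct] at hfv
      exact hfv rfl
    have key : ∀ g : Fin (k + 1) → F, g ≠ 0 → ∃ M : Matrix (Fin (k + 1)) (Fin (k + 1)) F, M.det = 1 ∧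
        ∀ x, (φ ∘ₗ al M) (sq x) = φ (sq v) / (f ⬝ᵥ v) ^ 2 * (g ⬝ᵥ x) ^ 2 := by
      intro g hg
      obtain ⟨M, hM, hMf⟩ := WtSL.move (m := k + 1) (by omega) hf0 hg
      refine ⟨M.transpose, by rw [Matrix.det_transpose, hM], ?_⟩
      intro x
      rw [al_mul_ext, hsq, Matrix.dotProduct_mulVec, Matrix.vecMul_transpose, hMf]
    choose! M hM1 hM2 using key
    have h3 := hd ((Finset.univ.filter (fun g : Fin (k + 1) → F => g ≠ 0)).image (fun g => φ ∘ₗ al (M g))) (by
      intro φ' hφ'
      obtain ⟨p, hp, rfl⟩ := Finset.mem_image.mp hφ'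
      exact ⟨M p, hM1 p (Finset.mem_filter.mp hp).2, rfl⟩)
    have h4 := Finset.card_le_mul_card_image (f := fun g => φ ∘ₗ al (M g))
      (Finset.univ.filter (fun g : Fin (k + 1) → F => g ≠ 0)) 2 (by
        intro b hb
        obtain ⟨g, hg, rfl⟩ := Finset.mem_image.mp hb
        have hg0 := (Finset.mem_filter.mp hg).2
        refine le_trans (Finset.card_le_card (t := {g, -g}) ?_) Finset.card_le_two
        intro g' hg'
        obtain ⟨hg'1, hg'2⟩ := Finset.mem_filter.mp hg'
        have hg'0 := (Finset.mem_filter.mp hg'1).2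
        have h5 : ∀ x, ((g' - g) ⬝ᵥ x) * ((g' + g) ⬝ᵥ x) = 0 := by
          intro x
          have h6 := congrArg (fun t : Sym (k + 1) F →ₗ[F] F => t (sq x)) hg'2
          simp only [hM2 g' hg'0, hM2 g hg0] at h6
          have h7 := mul_left_cancel₀ (div_ne_zero hv (pow_ne_zero 2 hfv)) h6
          rw [sub_dotProduct, add_dotProduct]
          linear_combination h7
        rw [Finset.mem_insert, Finset.mem_singleton]
        rcases dot_mul_dot h5 with h6 | h6
        · exact Or.inl (sub_eq_zero.mp h6)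
        · exact Or.inr (eq_neg_of_add_eq_zero_left h6))
    have h5 : (Finset.univ.filter (fun g : Fin (k + 1) → F => g ≠ 0)).card = Fintype.card F ^ (k + 1) - 1 := by
      rw [← Fintype.card_subtype, Fintype.card_subtype_compl, Fintype.card_subtype_eq,
      Fintype.card_fun, Fintype.card_fin]
    rw [h5] at h4
    exact h4.trans (Nat.mul_le_mul_left _ h3)


/-! ### homomorphisms trivial on the unipotent radical are trivial -/

omit [Fintype F] in
theorem T_mem_us (e : Fin m → F) (c : F) : Cfsg.Agent.H5.Symp.T (Sum.elim e 0) c =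
    us (c • sq e) := by
  apply Subtype.ext
  rw [us_coe]
  show Cfsg.sympTransvection m _ c = _
  rw [Cfsg.sympTransvection, Matrix.J, Matrix.fromBlocks_mulVec]
  ext a b
  rcases a with a | a <;> rcases b with b | b <;>
    simp [Matrix.vecMulVec_apply, sq_coe, Matrix.one_apply]

omit [Fintype F] in
theorem eq_one_of_us {M : Type*} [Monoid M] (r : Matrix.symplecticGroup (Fin (m + 1)) F →* M)
    (h : ∀ B, r (us B) = 1) (g : Matrix.symplecticGroup (Fin (m + 1)) F) : r g = 1 := by
  have h1 : Cfsg.Agent.H5.Symp.H (m + 1) F ≤ r.ker := by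
    rw [Cfsg.Agent.H5.Symp.H, Subgroup.closure_le]
    rintro A ⟨w, c, hA⟩
    have hA' : A = Cfsg.Agent.H5.Symp.T w c := Subtype.ext hA
    rw [hA']
    by_cases hw : w = 0
    · subst hw
      have : Cfsg.Agent.H5.Symp.T (0 : Fin (m + 1) ⊕ Fin (m + 1) → F) c = 1 := by
        have h2 := Cfsg.Agent.H5.Symp.T_smul (m := m + 1) (0 : F) 0 c
        rw [zero_smul] at h2
        rw [h2]
        simp [Cfsg.Agent.H5.Symp.T_zero]
      rw [this]
      exact one_mem _
    · obtain ⟨g, _, hg⟩ := Cfsg.Agent.H5.Symp.H_transitive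
        (u := Sum.elim (Pi.single (0 : Fin (m + 1)) (1 : F)) 0) (w := w) (by
          intro h0
          have := congrFun h0 (Sum.inl 0)
          simp at this) hw
      rw [← hg, ← Cfsg.Agent.H5.Symp.conj_T, T_mem_us]
      exact (MonoidHom.normal_ker r).conj_mem _ (MonoidHom.mem_ker.mpr (h _)) g
  rw [Cfsg.Agent.H5.Symp.H_eq_top] at h1
  exact MonoidHom.mem_ker.mp (h1 (Subgroup.mem_top g))

theorem odd_rep_bound {k : ℕ} (hk : 1 ≤ k) (hodd : Odd (Fintype.card F)) {K V : Type*} [Field K] [IsAlgClosed K]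
    [AddCommGroup V] [Module K V] [FiniteDimensional K V] (hK : ringChar K ≠ ringChar F)
    (r : Matrix.symplecticGroup (Fin (k + 1)) F →* Module.End K V) (hr : ∃ g, r g ≠ 1) :
    Fintype.card F ^ (k + 1) - 1 ≤ 2 * finrank K V := by
  classical
  obtain ⟨φ, hφ, h⟩ := Wt.main_bound_fin (r := r) (u := us) hK us_add (by
    by_contra hcon
    push Not at hcon
    obtain ⟨g, hg⟩ := hr
    exact hg (eq_one_of_us r hcon g))
  apply odd_bound hk hodd hφ
  intro S hS
  apply h S
  intro φ' hφ'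
  obtain ⟨M, hM, rfl⟩ := hS φ' hφ'
  obtain ⟨g, hg⟩ := us_levi' M hM
  exact ⟨g, al M, hg, fun x => rfl⟩

end Cfsg.Agent.H15.WtSp
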