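import Mathlib
import Cfsg.Agent.H15_Wt2
import Cfsg.Agent.H15_WtSp

set_option autoImplicit false
open Matrix Module

namespace Cfsg.Agent.H15.WtSp

open Cfsg.Agent.H15.Bruhat

variable {F : Type*} [Field F] {m : ℕ}

theorem move_gl {k : ℕ} {y z : Fin k → F} (hy : y ≠ 0) (hz : z ≠ 0) :
    ∃ M : Matrix (Fin k) (Fin k) F, M.det ≠ 0 ∧ M *ᵥ y = z := by
  by_cases hk : 2 ≤ k
  · obtain ⟨M, hM, hM2⟩ := WtSL.move hk hy hz
    exact ⟨M, by rw [hM]; exact one_ne_zero, hM2⟩
  · rcases k with _ | _ | k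
    · exact absurd (Subsingleton.elim _ _) hy
    · have hy0 : y 0 ≠ 0 := by
        intro h
        apply hy
        ext i
        rw [show i = 0 from Fin.fin_one_eq_zero i, h]; rfl
      have hz0 : z 0 ≠ 0 := by
        intro h
        apply hz
        ext i
        rw [show i = 0 from Fin.fin_one_eq_zero i, h]; rfl
      refine ⟨(z 0 / y 0) • 1, ?_, ?_⟩
      · rw [Matrix.det_smul, Matrix.det_one, mul_one]
        exact pow_ne_zero _ (div_ne_zero hz0 hy0)
      · rw [Matrix.smul_mulVec, Matrix.one_mulVec]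
        ext i
        rw [show i = 0 from Fin.fin_one_eq_zero i, Pi.smul_apply, smul_eq_mul, div_mul_cancel₀ _ hy0]
    · omega

theorem cons_vecMul_ins {k : ℕ} (t : Fin k → F) (c : F) (h : Matrix (Fin k) (Fin k) F) :
    (Fin.cons 0 t : Fin (k + 1) → F) ᵥ* (ins 0 0 c h) = Fin.cons 0 (t ᵥ* h) := by
  ext i
  rw [Matrix.vecMul, dotProduct, Fin.sum_univ_succ]
  refine Fin.cases ?_ (fun j => ?_) i
  · have := fun a => ins_ai 0 0 c h a
    simp only [Fin.succAbove_zero] at this
    simp [this]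
  · have := fun a => ins_ab 0 0 c h a j
    simp only [Fin.succAbove_zero] at this
    simp [this, Matrix.vecMul, dotProduct]

theorem ins_mulVec_e0 {k : ℕ} (c : F) (h : Matrix (Fin k) (Fin k) F) :
    (ins 0 0 c h) *ᵥ (Pi.single 0 1) = (Pi.single 0 c : Fin (k + 1) → F) := by
  ext i
  rw [Matrix.mulVec_single_one]
  refine Fin.cases ?_ (fun j => ?_) i
  · simp [Matrix.col]
  · have := ins_ai 0 0 c h j
    simpa [Matrix.col] using this

/-- moving a pair (vector, functional vanishing on it) -/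
theorem pair_move_iso {k : ℕ} (hk : 1 ≤ k) {v' f' : Fin (k + 1) → F} (hv' : v' ≠ 0) (hf' : f' ≠ 0) (h' : f' ⬝ᵥ v' = 0)
    {t : Fin k → F} (ht : t ≠ 0) :
    ∃ M : Matrix (Fin (k + 1)) (Fin (k + 1)) F, M.det ≠ 0 ∧ M *ᵥ (Pi.single 0 1) = v' ∧
      f' ᵥ* M = (Fin.cons 0 t : Fin (k + 1) → F) := by
  obtain ⟨M, hM, hMv⟩ := WtSL.move (m := k + 1) (by omega) (y := Pi.single (0 : Fin (k + 1)) (1 : F)) (by simp) hv'
  have h2 : (f' ᵥ* M) ⬝ᵥ (Pi.single 0 1) = 0 := by
    rw [← Matrix.dotProduct_mulVec, hMv, h']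
  rw [dotProduct_single_one] at h2
  have h3 : (f' ᵥ* M) = (Fin.cons 0 (Fin.tail (f' ᵥ* M)) : Fin (k + 1) → F) := by
    rw [← h2, Fin.cons_self_tail]
  have h4 : Fin.tail (f' ᵥ* M) ≠ 0 := by
    intro h0
    apply hf'
    have h5 : f' ᵥ* M = 0 := by
      rw [h3, h0]
      ext i
      refine Fin.cases ?_ (fun j => ?_) i <;> simp
    have h6 : IsUnit M.det := by rw [hM]; exact isUnit_one
    have := Matrix.vecMul_injective_of_isUnit ((Matrix.isUnit_iff_isUnit_det M).mpr h6)
    exact this (h5.trans (Matrix.zero_vecMul M).symm)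
  obtain ⟨h, hh, hh2⟩ := move_gl h4 ht
  refine ⟨M * ins 0 0 1 h.transpose, ?_, ?_, ?_⟩
  · rw [Matrix.det_mul, hM, WtSL.det_ins, Matrix.det_transpose]
    simpa using hh
  · rw [← Matrix.mulVec_mulVec, ins_mulVec_e0, hMv]
  · rw [← Matrix.vecMul_vecMul, h3, cons_vecMul_ins, Matrix.vecMul_transpose, hh2]

theorem al_mul (M N : Matrix (Fin m) (Fin m) F) (φ : Sym m F →ₗ[F] F) :
    (φ ∘ₗ al M) ∘ₗ al N = φ ∘ₗ al (M * N) := by
  apply ext_sq
  intro x
  rw [LinearMap.comp_apply, al_sq, al_mul_ext, al_mul_ext, Matrix.mulVec_mulVec]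

variable [Fintype F]

open Classical in
/-- the orbit under the general linear group -/
noncomputable def Oo (φ : Sym m F →ₗ[F] F) : Finset (Sym m F →ₗ[F] F) :=
  letI : Fintype (Sym m F →ₗ[F] F) := @Fintype.ofFinite _ (Module.finite_of_finite F)
  Finset.univ.filter (fun φ' => ∃ M : Matrix (Fin m) (Fin m) F, M.det ≠ 0 ∧ φ' = φ ∘ₗ al M)

theorem mem_Oo {φ φ' : Sym m F →ₗ[F] F} : φ' ∈ Oo φ ↔ ∃ M : Matrix (Fin m) (Fin m) F, M.det ≠ 0 ∧ φ' = φ ∘ₗ al M := by
  classical
  simp [Oo]

/-- embedding of symmetric matrices -/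
def emb {k : ℕ} : Sym k F →ₗ[F] Sym (k + 1) F where
  toFun B := ⟨ins 0 0 0 B.1, by
    rw [mem_Sym]
    have hB := B.2
    rw [mem_Sym] at hB
    apply ext_ins 0 0
    · rfl
    · intro a
      rw [Matrix.transpose_apply]
      have h1 := ins_ai 0 0 0 B.1 a
      have h2 := ins_ia 0 0 0 B.1 a
      rw [h2]; exact h1
    · intro a
      rw [Matrix.transpose_apply]
      have h1 := ins_ai 0 0 0 B.1 a
      have h2 := ins_ia 0 0 0 B.1 a
      rw [h1]; exact h2
    · intro a b
      rw [Matrix.transpose_apply]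
      have h1 := ins_ab 0 0 0 B.1 a b
      have h2 := ins_ab 0 0 0 B.1 b a
      rw [h1, h2]
      exact congrFun (congrFun hB a) b⟩
  map_add' a b := by
    apply Subtype.ext
    apply ext_ins 0 0
    · simp [ins_ii]
    · intro c; simp only [Submodule.coe_add, Matrix.add_apply, ins_ia, add_zero]
    · intro c; simp only [Submodule.coe_add, Matrix.add_apply, ins_ai, add_zero]
    · intro c d; simp only [Submodule.coe_add, Matrix.add_apply, ins_ab]
  map_smul' c a := by
    apply Subtype.ext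
    apply ext_ins 0 0
    · simp [ins_ii]
    · intro d; simp only [Submodule.coe_smul, Matrix.smul_apply, ins_ia, smul_zero, RingHom.id_apply]
    · intro d; simp only [Submodule.coe_smul, Matrix.smul_apply, ins_ai, smul_zero, RingHom.id_apply]
    · intro d e; simp only [Submodule.coe_smul, Matrix.smul_apply, ins_ab, RingHom.id_apply]

omit [Fintype F] in
theorem emb_sq {k : ℕ} (x : Fin k → F) : emb (sq x) = sq (Fin.cons 0 x : Fin (k + 1) → F) := by
  apply Subtype.ext
  show ins 0 0 0 (sq x).1 = _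
  rw [sq_coe, sq_coe]
  apply ext_ins 0 0
  · simp [ins_ii, Matrix.vecMulVec_apply]
  · intro a; rw [ins_ia]; simp [Matrix.vecMulVec_apply]
  · intro a; rw [ins_ai]; simp [Matrix.vecMulVec_apply]
  · intro a b; rw [ins_ab]; simp [Matrix.vecMulVec_apply]

omit [Fintype F] in
theorem emb_sy {k : ℕ} (x y : Fin k → F) : emb (sy x y) = sy (Fin.cons 0 x : Fin (k + 1) → F) (Fin.cons 0 y : Fin (k + 1) → F) := by
  have h1 := sq_add x y
  have h2 : sy x y = sq (x + y) - sq x - sq y := by rw [h1]; abel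
  have h3 : sy (Fin.cons 0 x : Fin (k + 1) → F) (Fin.cons 0 y : Fin (k + 1) → F) =
      sq ((Fin.cons 0 x : Fin (k + 1) → F) + (Fin.cons 0 y : Fin (k + 1) → F)) - sq (Fin.cons 0 x : Fin (k + 1) → F) -
        sq (Fin.cons 0 y : Fin (k + 1) → F) := by rw [sq_add]; abel
  have h4 : (Fin.cons 0 x : Fin (k + 1) → F) + (Fin.cons 0 y : Fin (k + 1) → F) = Fin.cons 0 (x + y) := by
    ext i
    refine Fin.cases ?_ (fun j => ?_) i <;> simp
  rw [h2, h3, map_sub, map_sub, emb_sq, emb_sq, emb_sq, h4]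

omit [Fintype F] in
theorem ins_cons {k : ℕ} (c : F) (h : Matrix (Fin k) (Fin k) F) (x : Fin k → F) :
    (ins 0 0 c h) *ᵥ (Fin.cons 0 x : Fin (k + 1) → F) = Fin.cons 0 (h *ᵥ x) := by
  ext i
  rw [Matrix.mulVec, dotProduct, Fin.sum_univ_succ]
  refine Fin.cases ?_ (fun j => ?_) i
  · have := fun a => ins_ia 0 0 c h a
    simp only [Fin.succAbove_zero] at this
    simp [this]
  · have := fun a => ins_ab 0 0 c h j a
    simp only [Fin.succAbove_zero] at this
    simp [this, Matrix.mulVec, dotProduct]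


open Classical in
/-- induction step for the lower bound of the orbit of a quadratic form with non-zero polar form in characteristic two -/
theorem even_step (h2 : (2 : F) = 0) (k : ℕ) (hk : 1 ≤ k) (ih : ∀ φ : Sym k F →ₗ[F] F, (∃ x y, φ (sy x y) ≠ 0) →
    (Fintype.card F ^ k - 1) * (Fintype.card F ^ k - Fintype.card F) ≤
      2 * (Fintype.card F + 1) * (Oo φ).card) (φ : Sym (k + 1) F →ₗ[F] F) (hφ : ∃ x y, φ (sy x y) ≠ 0) :
    (Fintype.card F ^ (k + 1) - 1) * (Fintype.card F ^ (k + 1) - Fintype.card F) ≤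
      2 * (Fintype.card F + 1) * (Oo φ).card := by
    obtain ⟨q, hq⟩ : ∃ q, q = Fintype.card F := ⟨_, rfl⟩
    rw [← hq] at ih ⊢
    have hq2 : 2 ≤ q := by rw [hq]; exact Fintype.one_lt_card
    -- representatives
    have hpv : ∀ v x, pv φ v ⬝ᵥ x = φ (sy x v) := pv_dot φ
    have hss : ∀ v, pv φ v ⬝ᵥ v = 0 := by
      intro v
      rw [hpv, sy_self, h2, zero_smul, map_zero]
    have hrep : ∀ v, v ≠ 0 → pv φ v ≠ 0 → ∀ t : Fin k → F, t ≠ 0 → ∃ M : Matrix (Fin (k + 1)) (Fin (k + 1)) F,
        M.det ≠ 0 ∧ φ (sq v) = (φ ∘ₗ al M) (sq (Pi.single 0 1)) ∧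
        ∀ x, (φ ∘ₗ al M) (sy x (Pi.single 0 1)) = (Fin.cons 0 t : Fin (k + 1) → F) ⬝ᵥ x := by
      intro v hv hfv t ht
      obtain ⟨M, hM, hM1, hM2⟩ := pair_move_iso (by omega) hv hfv (hss v) ht
      refine ⟨M, hM, ?_, ?_⟩
      · rw [al_mul_ext, hM1]
      · intro x
        rw [al_sy_ext, hM1, ← hpv, Matrix.dotProduct_mulVec, hM2]
    have hur : ∀ l : Fin k → F, (WtSL.urow l) *ᵥ (Pi.single 0 1) = (Pi.single 0 1 : Fin (k + 1) → F) := by
      intro l
      rw [WtSL.urow, Matrix.add_mulVec, Matrix.one_mulVec, Matrix.vecMulVec_mulVec]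
      simp
    have hur2 : ∀ (l y : Fin k → F), (WtSL.urow l) *ᵥ (Fin.cons 0 y : Fin (k + 1) → F) =
        (Fin.cons 0 y : Fin (k + 1) → F) + (l ⬝ᵥ y) • (Pi.single 0 1 : Fin (k + 1) → F) := by
      intro l y
      rw [WtSL.urow, Matrix.add_mulVec, Matrix.one_mulVec, Matrix.vecMulVec_mulVec]
      congr 1
      have h5 : (Fin.cons 0 l : Fin (k + 1) → F) ⬝ᵥ (Fin.cons 0 y : Fin (k + 1) → F) = l ⬝ᵥ y := by
        rw [dotProduct, Fin.sum_univ_succ]
        simp [dotProduct]
      rw [h5]
      ext i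
      simp [mul_comm]
    -- effect of the transvection
    have hval : ∀ (φ' : Sym (k + 1) F →ₗ[F] F) (t l y : Fin k → F) (_ : ∀ x, φ' (sy x (Pi.single 0 1)) =
        (Fin.cons 0 t : Fin (k + 1) → F) ⬝ᵥ x), (φ' ∘ₗ al (WtSL.urow l)) (sq (Fin.cons 0 y : Fin (k + 1) → F)) =
          φ' (sq (Fin.cons 0 y : Fin (k + 1) → F)) + (l ⬝ᵥ y) * (t ⬝ᵥ y) + (l ⬝ᵥ y) ^ 2 * φ' (sq (Pi.single 0 1)) := by
      intro φ' t l y hφ'
      rw [al_mul_ext, hur2, sq_add, map_add, map_add, sq_smul, map_smul, sy_comm, sy_smul_left, map_smul, sy_comm, hφ']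
      have : (Fin.cons 0 t : Fin (k + 1) → F) ⬝ᵥ (Fin.cons 0 y : Fin (k + 1) → F) = t ⬝ᵥ y := by
        rw [dotProduct, Fin.sum_univ_succ]
        simp [dotProduct]
      rw [this, smul_eq_mul, smul_eq_mul]
      ring
    have hval0 : ∀ (φ' : Sym (k + 1) F →ₗ[F] F) (l : Fin k → F), (φ' ∘ₗ al (WtSL.urow l)) (sq (Pi.single 0 1)) =
        φ' (sq (Pi.single 0 1)) := by
      intro φ' l
      rw [al_mul_ext, hur]
    have hval1 : ∀ (φ' : Sym (k + 1) F →ₗ[F] F) (t l : Fin k → F) (_ : ∀ x, φ' (sy x (Pi.single 0 1)) =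
        (Fin.cons 0 t : Fin (k + 1) → F) ⬝ᵥ x) (y : Fin k → F),
        (φ' ∘ₗ al (WtSL.urow l)) (sy (Fin.cons 0 y : Fin (k + 1) → F) (Pi.single 0 1)) = t ⬝ᵥ y := by
      intro φ' t l hφ' y
      rw [al_sy_ext, hur, hφ', hur2, dotProduct_add, dotProduct_smul]
      have h5 : (Fin.cons 0 t : Fin (k + 1) → F) ⬝ᵥ (Fin.cons 0 y : Fin (k + 1) → F) = t ⬝ᵥ y := by
        rw [dotProduct, Fin.sum_univ_succ]
        simp [dotProduct]
      rw [h5, dotProduct_single_one]
      simp
    -- the part of the orbit with non-zero value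
    have hO1 : (q - 1) * (q ^ k - 1) * q ^ k ≤ 2 * ((Oo φ).filter (fun φ' => φ' (sq (Pi.single 0 1)) ≠ 0)).card := by
      -- a vector with non-zero value and non-radical
      obtain ⟨v, hv, hfv⟩ : ∃ v, φ (sq v) ≠ 0 ∧ pv φ v ≠ 0 := by
        obtain ⟨x, y, hxy⟩ := hφ
        have hx : pv φ x ≠ 0 := by
          intro h0
          have := hpv x y
          rw [h0, zero_dotProduct, sy_comm] at this
          exact hxy this.symm
        have hy : pv φ y ≠ 0 := by
          intro h0
          have := hpv y x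
          rw [h0, zero_dotProduct] at this
          exact hxy this.symm
        by_cases h1 : φ (sq x) = 0
        · by_cases h3 : φ (sq y) = 0
          · refine ⟨x + y, ?_, ?_⟩
            · rw [sq_add, map_add, map_add, h1, h3]
              simpa using hxy
            · intro h0
              have := hpv (x + y) x
              rw [h0, zero_dotProduct, sy_comm, sy_add_left, map_add, sy_self, h2, zero_smul, map_zero, zero_add,
                sy_comm] at this
              exact hxy this.symm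
          · exact ⟨y, h3, hy⟩
        · exact ⟨x, h1, hx⟩
      have hv0 : v ≠ 0 := by
        rintro rfl
        apply hv
        have : sq (0 : Fin (k + 1) → F) = 0 := by
          apply Subtype.ext
          simp [sq_coe]
        rw [this, map_zero]
      have hallv : ∀ a : F, a ≠ 0 → ∃ w, w ≠ 0 ∧ φ (sq w) = a ∧ pv φ w ≠ 0 := by
        intro a ha
        obtain ⟨c, hc⟩ : ∃ c : F, c * c = a / φ (sq v) := by
          have hinj : Function.Injective (fun x : F => x * x) := by
            intro x y hxy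
            have h5 : (x - y) ^ 2 = 0 := by
              simp only at hxy
              linear_combination hxy + (y * y - x * y) * h2
            exact sub_eq_zero.mp (pow_eq_zero_iff (two_ne_zero)|>.mp h5)
          exact Finite.surjective_of_injective hinj _
        have hc0 : c ≠ 0 := by
          rintro rfl
          rw [zero_mul] at hc
          exact (div_ne_zero ha hv) hc.symm
        refine ⟨c • v, smul_ne_zero hc0 hv0, ?_, ?_⟩
        · rw [sq_smul, map_smul, hc, smul_eq_mul, div_mul_cancel₀ _ hv]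
        · intro h0
          apply hfv
          apply dotProduct_eq
          intro x
          have := hpv (c • v) x
          rw [h0, zero_dotProduct, sy_comm, sy_smul_left, map_smul, sy_comm, ← hpv, smul_eq_mul] at this
          rw [zero_dotProduct]
          exact (mul_eq_zero.mp this.symm).resolve_left hc0
      have hM : ∀ (a : {a : F // a ≠ 0}) (t : {t : Fin k → F // t ≠ 0}), ∃ M : Matrix (Fin (k + 1)) (Fin (k + 1)) F,
        M.det ≠ 0 ∧ (φ ∘ₗ al M) (sq (Pi.single 0 1)) = a.1 ∧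
        ∀ x, (φ ∘ₗ al M) (sy x (Pi.single 0 1)) = (Fin.cons 0 t.1 : Fin (k + 1) → F) ⬝ᵥ x := by
        intro a t
        obtain ⟨w, hw0, hw, hfw⟩ := hallv a.1 a.2
        obtain ⟨M, hM, hM1, hM2⟩ := hrep w hw0 hfw t.1 t.2
        exact ⟨M, hM, by rw [← hM1, hw], hM2⟩
      choose M hM0 hM1 hM2 using hM
      let g : ({a : F // a ≠ 0} × {t : Fin k → F // t ≠ 0}) × (Fin k → F) → (Sym (k + 1) F →ₗ[F] F) :=
        fun p => (φ ∘ₗ al (M p.1.1 p.1.2)) ∘ₗ al (WtSL.urow p.2)
      have hg : Finset.univ.image g ⊆ (Oo φ).filter (fun φ' => φ' (sq (Pi.single 0 1)) ≠ 0) := by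
        intro φ' hφ'
        obtain ⟨p, _, rfl⟩ := Finset.mem_image.mp hφ'
        rw [Finset.mem_filter, mem_Oo]
        refine ⟨⟨M p.1.1 p.1.2 * WtSL.urow p.2, ?_, ?_⟩, ?_⟩
        · rw [Matrix.det_mul, WtSL.det_urow, mul_one]; exact hM0 _ _
        · show (φ ∘ₗ al (M p.1.1 p.1.2)) ∘ₗ al (WtSL.urow p.2) = _
          rw [al_mul]
        · show ((φ ∘ₗ al (M p.1.1 p.1.2)) ∘ₗ al (WtSL.urow p.2)) (sq (Pi.single 0 1)) ≠ 0
          rw [hval0, hM1]
          exact p.1.1.2
      have h5 := Finset.card_le_mul_card_image (f := g) Finset.univ 2 (by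
        intro b hb
        obtain ⟨⟨⟨a, t⟩, l⟩, _, rfl⟩ := Finset.mem_image.mp hb
        refine le_trans (Finset.card_le_card (t := {((a, t), l), ((a, t), l + (a.1)⁻¹ • t.1)}) ?_) Finset.card_le_two
        rintro ⟨⟨a', t'⟩, l'⟩ hp
        have hp2 : g ((a', t'), l') = g ((a, t), l) := (Finset.mem_filter.mp hp).2
        have ha : a' = a := by
          apply Subtype.ext
          have h6 := congrArg (fun f : Sym (k + 1) F →ₗ[F] F => f (sq (Pi.single 0 1))) hp2
          simp only [g, hval0, hM1] at h6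
          exact h6
        subst ha
        have ht : t' = t := by
          apply Subtype.ext
          apply dotProduct_eq
          intro y
          have h6 := congrArg (fun f : Sym (k + 1) F →ₗ[F] F => f (sy (Fin.cons 0 y : Fin (k + 1) → F) (Pi.single 0 1))) hp2
          simp only [g] at h6
          rw [hval1 _ t'.1 l' (hM2 _ _), hval1 _ t.1 l (hM2 _ _)] at h6
          exact h6
        subst ht
        have h7 : ∀ y, ((l' + l) ⬝ᵥ y) * ((t'.1 + a'.1 • (l' + l)) ⬝ᵥ y) = 0 := by
          intro y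
          have h6 := congrArg (fun f : Sym (k + 1) F →ₗ[F] F => f (sq (Fin.cons 0 y : Fin (k + 1) → F))) hp2
          simp only [g] at h6
          rw [hval _ t'.1 l' y (hM2 _ _), hval _ t'.1 l y (hM2 _ _), hM1] at h6
          rw [add_dotProduct, add_dotProduct, smul_dotProduct, add_dotProduct, smul_eq_mul]
          linear_combination h6 + ((l ⬝ᵥ y) * (t'.1 ⬝ᵥ y) + a'.1 * (l' ⬝ᵥ y) * (l ⬝ᵥ y) + a'.1 * (l ⬝ᵥ y) ^ 2) * h2
        have hchar : ∀ x : Fin k → F, x + x = 0 := by
          intro x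
          ext i
          rw [Pi.add_apply, ← two_mul, h2, zero_mul, Pi.zero_apply]
        rw [Finset.mem_insert, Finset.mem_singleton]
        rcases dot_mul_dot h7 with h8 | h8
        · left
          have : l' = l := by
            calc l' = l' + (l + l) := by rw [hchar, add_zero]
              _ = (l' + l) + l := by abel
              _ = l := by rw [h8, zero_add]
          rw [this]
        · right
          have : l' = l + (a'.1)⁻¹ • t'.1 := by
            have h9 : a'.1 • (l' + l) = t'.1 := by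
              calc a'.1 • (l' + l) = (t'.1 + t'.1) + a'.1 • (l' + l) := by rw [hchar, zero_add]
                _ = t'.1 + (t'.1 + a'.1 • (l' + l)) := by abel
                _ = t'.1 := by rw [h8, add_zero]
            have h10 : (a'.1)⁻¹ • t'.1 = l' + l := by
              rw [← h9, smul_smul, inv_mul_cancel₀ a'.2, one_smul]
            rw [h10]
            calc l' = l' + (l + l) := by rw [hchar, add_zero]
              _ = l + (l' + l) := by abel
          rw [this])
      rw [Finset.card_univ, Fintype.card_prod, Fintype.card_prod, Fintype.card_subtype_compl, Fintype.card_subtype_eq,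
        Fintype.card_subtype_compl, Fintype.card_subtype_eq, Fintype.card_fun, Fintype.card_fin, ← hq] at h5
      exact h5.trans (Nat.mul_le_mul_left 2 (Finset.card_le_card hg))
    -- the part with zero value
    have hO0 : (q ^ k - 1) * (q ^ k - q) ≤ 2 * (q + 1) * ((Oo φ).filter (fun φ' => ¬ φ' (sq (Pi.single 0 1)) ≠ 0)).card := by
      rcases Nat.lt_or_ge k 2 with hk2 | hk2
      · have : k = 1 := by omega
        subst this
        simp
      -- an isotropic vector
      obtain ⟨v, hv0, hv⟩ : ∃ v : Fin (k + 1) → F, v ≠ 0 ∧ φ (sq v) = 0 := by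
        set v₀ : Fin (k + 1) → F := Pi.single 0 1 with hv₀
        have hv₀0 : v₀ ≠ 0 := by rw [hv₀]; simp
        obtain ⟨w, hw1, hw2⟩ : ∃ w, pv φ v₀ ⬝ᵥ w = 0 ∧ w ∉ Submodule.span F ({v₀} : Set (Fin (k + 1) → F)) := by
          by_contra hcon
          push Not at hcon
          have h5 : LinearMap.ker (dotProductEquiv F (Fin (k + 1)) (pv φ v₀)) ≤ Submodule.span F ({v₀} : Set (Fin (k + 1) → F)) := by
            intro w hw
            exact hcon w (LinearMap.mem_ker.mp hw)
          have h6 := Submodule.finrank_mono h5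
          rw [finrank_span_singleton hv₀0] at h6
          have h7 := LinearMap.finrank_range_add_finrank_ker (dotProductEquiv F (Fin (k + 1)) (pv φ v₀))
          rw [Module.finrank_fin_fun] at h7
          have h8 : finrank F (LinearMap.range (dotProductEquiv F (Fin (k + 1)) (pv φ v₀))) ≤ 1 := by
            have := Submodule.finrank_le (LinearMap.range (dotProductEquiv F (Fin (k + 1)) (pv φ v₀)))
            rwa [Module.finrank_self] at this
          omega
        by_cases hw : φ (sq w) = 0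
        · refine ⟨w, ?_, hw⟩
          rintro rfl
          exact hw2 (Submodule.zero_mem _)
        · obtain ⟨c, hc⟩ : ∃ c : F, c * c = φ (sq v₀) / φ (sq w) := by
            have hinj : Function.Injective (fun x : F => x * x) := by
              intro x y hxy
              have h5 : (x - y) ^ 2 = 0 := by
                simp only at hxy
                linear_combination hxy + (y * y - x * y) * h2
              exact sub_eq_zero.mp (pow_eq_zero_iff (two_ne_zero)|>.mp h5)
            exact Finite.surjective_of_injective hinj _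
          by_cases hc0 : c = 0
          · refine ⟨v₀, hv₀0, ?_⟩
            rw [hc0, mul_zero] at hc
            exact (div_eq_zero_iff.mp hc.symm).resolve_right hw
          · refine ⟨v₀ + c • w, ?_, ?_⟩
            · intro h0
              apply hw2
              rw [Submodule.mem_span_singleton]
              refine ⟨-c⁻¹, ?_⟩
              have : v₀ = - (c • w) := eq_neg_of_add_eq_zero_left h0
              rw [this, neg_smul, smul_neg, neg_neg, smul_smul, inv_mul_cancel₀ hc0, one_smul]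
            · rw [sq_add, map_add, map_add, sq_smul, map_smul, sy_comm, sy_smul_left, map_smul, ← hpv, hw1, hc,
                smul_eq_mul, div_mul_cancel₀ _ hw, smul_zero, add_zero, ← two_mul, h2, zero_mul]
      by_cases hfv : pv φ v = 0
      · -- radical case
        obtain ⟨M₀, hM₀, hM₀v⟩ := WtSL.move (m := k + 1) (by omega) (y := Pi.single (0 : Fin (k + 1)) (1 : F)) (by simp) hv0
        have hφ'' := ih ((φ ∘ₗ al M₀) ∘ₗ emb) (by
          obtain ⟨x, y, hxy⟩ := hφ
          have hu : IsUnit M₀.det := by rw [hM₀]; exact isUnit_one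
          have hinv : ∀ x, M₀ *ᵥ (M₀⁻¹ *ᵥ x) = x := by
            intro x
            rw [Matrix.mulVec_mulVec, Matrix.mul_nonsing_inv _ hu, Matrix.one_mulVec]
          have hrad : ∀ z, (φ ∘ₗ al M₀) (sy (Pi.single 0 1) z) = 0 := by
            intro z
            rw [al_sy_ext, hM₀v, sy_comm, ← hpv, hfv, zero_dotProduct]
          have hdec : ∀ z : Fin (k + 1) → F, z = z 0 • (Pi.single 0 1 : Fin (k + 1) → F) + Fin.cons 0 (Fin.tail z) := by
            intro z
            ext i
            refine Fin.cases ?_ (fun j => ?_) i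
            · simp
            · simp [Fin.tail]
          refine ⟨Fin.tail (M₀⁻¹ *ᵥ x), Fin.tail (M₀⁻¹ *ᵥ y), ?_⟩
          rw [LinearMap.comp_apply, emb_sy]
          intro h0
          apply hxy
          rw [← hinv x, ← hinv y, ← al_sy_ext, hdec (M₀⁻¹ *ᵥ x), hdec (M₀⁻¹ *ᵥ y), sy_add_left, map_add, sy_smul_left,
            map_smul, hrad, smul_zero, zero_add, sy_comm, sy_add_left, map_add, sy_smul_left, map_smul, hrad,
            smul_zero, zero_add, sy_comm]
          exact h0)
        refine hφ''.trans (Nat.mul_le_mul_left _ ?_)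
        refine le_trans (Finset.card_le_card (t := ((Oo φ).filter (fun φ' => ¬ φ' (sq (Pi.single 0 1)) ≠ 0)).image
          (fun φ' => φ' ∘ₗ emb)) ?_) Finset.card_image_le
        intro ξ hξ
        obtain ⟨h, hh, rfl⟩ := mem_Oo.mp hξ
        rw [Finset.mem_image]
        refine ⟨(φ ∘ₗ al M₀) ∘ₗ al (ins 0 0 1 h), ?_, ?_⟩
        · rw [Finset.mem_filter, mem_Oo]
          refine ⟨⟨M₀ * ins 0 0 1 h, ?_, ?_⟩, ?_⟩
          · rw [Matrix.det_mul, hM₀, WtSL.det_ins]
            simpa using hh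
          · rw [al_mul]
          · rw [not_not, al_mul_ext, ins_mulVec_e0, al_mul_ext, hM₀v, hv]
        · apply ext_sq
          intro x
          rw [LinearMap.comp_apply, emb_sq, al_mul_ext, ins_cons, al_mul_ext, LinearMap.comp_apply, al_sq,
            LinearMap.comp_apply, emb_sq, al_mul_ext]
      · -- non-radical case
        have hM : ∀ (t : {t : Fin k → F // t ≠ 0}), ∃ M : Matrix (Fin (k + 1)) (Fin (k + 1)) F,
          M.det ≠ 0 ∧ (φ ∘ₗ al M) (sq (Pi.single 0 1)) = 0 ∧
          ∀ x, (φ ∘ₗ al M) (sy x (Pi.single 0 1)) = (Fin.cons 0 t.1 : Fin (k + 1) → F) ⬝ᵥ x := by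
          intro t
          obtain ⟨M, hM, hM1, hM2⟩ := hrep v hv0 hfv t.1 t.2
          exact ⟨M, hM, by rw [← hM1, hv], hM2⟩
        choose M hM0 hM1 hM2 using hM
        let g : {t : Fin k → F // t ≠ 0} × (Fin k → F) → (Sym (k + 1) F →ₗ[F] F) :=
          fun p => (φ ∘ₗ al (M p.1)) ∘ₗ al (WtSL.urow p.2)
        have hg : Finset.univ.image g ⊆ (Oo φ).filter (fun φ' => ¬ φ' (sq (Pi.single 0 1)) ≠ 0) := by
          intro φ' hφ'
          obtain ⟨p, _, rfl⟩ := Finset.mem_image.mp hφ'
          rw [Finset.mem_filter, mem_Oo]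
          refine ⟨⟨M p.1 * WtSL.urow p.2, ?_, ?_⟩, ?_⟩
          · rw [Matrix.det_mul, WtSL.det_urow, mul_one]; exact hM0 _
          · show (φ ∘ₗ al (M p.1)) ∘ₗ al (WtSL.urow p.2) = _
            rw [al_mul]
          · show ¬ ((φ ∘ₗ al (M p.1)) ∘ₗ al (WtSL.urow p.2)) (sq (Pi.single 0 1)) ≠ 0
            rw [not_not, hval0, hM1]
        have hinj : Function.Injective g := by
          rintro ⟨t, l⟩ ⟨t', l'⟩ hp2
          have ht : t = t' := by
            apply Subtype.ext
            apply dotProduct_eq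
            intro y
            have h6 := congrArg (fun f : Sym (k + 1) F →ₗ[F] F => f (sy (Fin.cons 0 y : Fin (k + 1) → F) (Pi.single 0 1))) hp2
            simp only [g] at h6
            rw [hval1 _ t.1 l (hM2 _), hval1 _ t'.1 l' (hM2 _)] at h6
            exact h6
          subst ht
          have h7 : ∀ y, ((l - l') ⬝ᵥ y) * (t.1 ⬝ᵥ y) = 0 := by
            intro y
            have h6 := congrArg (fun f : Sym (k + 1) F →ₗ[F] F => f (sq (Fin.cons 0 y : Fin (k + 1) → F))) hp2
            simp only [g] at h6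
            rw [hval _ t.1 l y (hM2 _), hval _ t.1 l' y (hM2 _), hM1] at h6
            rw [sub_dotProduct]
            linear_combination h6
          rcases dot_mul_dot h7 with h8 | h8
          · rw [sub_eq_zero.mp h8]
          · exact absurd h8 t.2
        have h5 := Finset.card_le_card hg
        rw [Finset.card_image_of_injective _ hinj, Finset.card_univ, Fintype.card_prod, Fintype.card_subtype_compl,
          Fintype.card_subtype_eq, Fintype.card_fun, Fintype.card_fin, ← hq] at h5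
        calc (q ^ k - 1) * (q ^ k - q) ≤ (q ^ k - 1) * q ^ k := Nat.mul_le_mul_left _ (Nat.sub_le _ _)
          _ ≤ _ := h5
          _ ≤ _ := Nat.le_mul_of_pos_left _ (by positivity)
    have hsum := Finset.card_filter_add_card_filter_not (s := Oo φ) (fun φ' => φ' (sq (Pi.single 0 1)) ≠ 0)
    set O1 := ((Oo φ).filter (fun φ' => φ' (sq (Pi.single 0 1)) ≠ 0)).card
    set O0 := ((Oo φ).filter (fun φ' => ¬ φ' (sq (Pi.single 0 1)) ≠ 0)).card
    rw [← hsum]
    have hX : q ≤ q ^ k := by
      calc q = q ^ 1 := (pow_one q).symm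
        _ ≤ q ^ k := Nat.pow_le_pow_right (by omega) hk
    rw [pow_succ]
    obtain ⟨p, rfl⟩ : ∃ p, q = p + 1 := ⟨q - 1, by omega⟩
    obtain ⟨Z, hZ⟩ : ∃ Z, (p + 1) ^ k = (p + 1) + Z := ⟨(p + 1) ^ k - (p + 1), by omega⟩
    rw [hZ] at hO1 hO0 ⊢
    have e1 : p + 1 - 1 = p := by omega
    have e2 : p + 1 + Z - 1 = p + Z := by omega
    have e3 : p + 1 + Z - (p + 1) = Z := by omega
    have e4 : (p + 1 + Z) * (p + 1) - 1 = (p + Z) * (p + 1) + p := by
      have : (p + 1 + Z) * (p + 1) = (p + Z) * (p + 1) + p + 1 := by ring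
      omega
    have e5 : (p + 1 + Z) * (p + 1) - (p + 1) = (p + Z) * (p + 1) := by
      have : (p + 1 + Z) * (p + 1) = (p + Z) * (p + 1) + (p + 1) := by ring
      omega
    rw [e1, e2] at hO1
    rw [e2, e3] at hO0
    rw [e4, e5]
    nlinarith [hO1, hO0]

theorem even_orbit (h2 : (2 : F) = 0) : ∀ (k : ℕ) (φ : Sym (k + 1) F →ₗ[F] F), (∃ x y, φ (sy x y) ≠ 0) →
    (Fintype.card F ^ (k + 1) - 1) * (Fintype.card F ^ (k + 1) - Fintype.card F) ≤
      2 * (Fintype.card F + 1) * (Oo φ).card := by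
  intro k
  induction k with
  | zero => intro φ _; simp
  | succ n ih => exact fun φ hφ => even_step h2 (n + 1) (by omega) ih φ hφ


section gen

open Cfsg.Agent.H5.Symp

variable {F : Type*} [Field F] {m : ℕ}

theorem eq_one_of_T {M : Type*} [Monoid M] (r : Matrix.symplecticGroup (Fin m) F →* M) {v₀ : Fin m ⊕ Fin m → F}
    (hv₀ : v₀ ≠ 0) (h : ∀ c, r (T v₀ c) = 1) (g : Matrix.symplecticGroup (Fin m) F) : r g = 1 := by
  have h1 : Cfsg.Agent.H5.Symp.H m F ≤ r.ker := by
    rw [Cfsg.Agent.H5.Symp.H, Subgroup.closure_le]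
    rintro A ⟨w, c, hA⟩
    have hA' : A = Cfsg.Agent.H5.Symp.T w c := Subtype.ext hA
    rw [hA']
    by_cases hw : w = 0
    · subst hw
      have : Cfsg.Agent.H5.Symp.T (0 : Fin m ⊕ Fin m → F) c = 1 := by
        have h2 := Cfsg.Agent.H5.Symp.T_smul (m := m) (0 : F) 0 c
        rw [zero_smul] at h2
        rw [h2]
        simp [Cfsg.Agent.H5.Symp.T_zero]
      rw [this]
      exact one_mem _
    · obtain ⟨g, _, hg⟩ := Cfsg.Agent.H5.Symp.H_transitive hv₀ hw
      rw [← hg, ← Cfsg.Agent.H5.Symp.conj_T]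
      exact (MonoidHom.normal_ker r).conj_mem _ (MonoidHom.mem_ker.mpr (h _)) g
  rw [Cfsg.Agent.H5.Symp.H_eq_top] at h1
  exact MonoidHom.mem_ker.mp (h1 (Subgroup.mem_top g))

theorem eq_one_of_sy {M : Type*} [Monoid M] (hm : 2 ≤ m) (r : Matrix.symplecticGroup (Fin m) F →* M)
    (h : ∀ x y, r (us (sy x y)) = 1) (g : Matrix.symplecticGroup (Fin m) F) : r g = 1 := by
  set i₀ : Fin m := ⟨0, by omega⟩
  set i₁ : Fin m := ⟨1, by omega⟩
  have hne : i₀ ≠ i₁ := by
    intro h0
    have := congrArg Fin.val h0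
    simp [i₀, i₁] at this
  set e₀ : Fin m → F := Pi.single i₀ 1 with he₀
  set e₁ : Fin m → F := Pi.single i₁ 1 with he₁
  set a : Fin m ⊕ Fin m → F := Sum.elim e₀ 0 with ha
  set b : Fin m ⊕ Fin m → F := Sum.elim e₁ 0 with hb
  set f : Fin m ⊕ Fin m → F := Sum.elim 0 e₁ with hf
  have hform : ∀ x y x' y' : Fin m → F, Cfsg.sympForm m F (Sum.elim x y) (Sum.elim x' y') = y ⬝ᵥ x' - x ⬝ᵥ y' := by
    intro x y x' y'
    rw [Cfsg.sympForm, Matrix.J, Matrix.fromBlocks_mulVec]
    simp only [Sum.elim_comp_inl, Sum.elim_comp_inr, Matrix.zero_mulVec, zero_add, Matrix.one_mulVec, add_zero,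
      Matrix.neg_mulVec]
    rw [← Sum.elim_comp_inl x y, dotProduct]
    simp only [Fintype.sum_sum_type, Sum.elim_inl, Sum.elim_inr, dotProduct, Pi.neg_apply]
    simp only [mul_neg, Finset.sum_neg_distrib]
    ring_nf
  have hab : Cfsg.sympForm m F a b = 0 := by rw [ha, hb, hform]; simp
  have haf : Cfsg.sympForm m F a f = 0 := by
    rw [ha, hf, hform]
    simp [he₀, he₁, hne]
  have hbf : Cfsg.sympForm m F b f = -1 := by
    rw [hb, hf, hform]
    simp [he₁]
  have hbf0 : Cfsg.sympForm m F b f ≠ 0 := by rw [hbf]; simp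
  -- the kernel
  have hN : r.ker.Normal := MonoidHom.normal_ker r
  have hS1 : T (a + b) 1 * T a (-1) * T b (-1) ∈ r.ker := by
    have h1 : a + b = Sum.elim (e₀ + e₁) 0 := by
      ext i
      rcases i with i | i <;> simp [ha, hb]
    rw [h1, ha, hb, T_mem_us, T_mem_us, T_mem_us, ← us_add, ← us_add, MonoidHom.mem_ker]
    have h2 : (1 : F) • sq (e₀ + e₁) + (-1 : F) • sq e₀ + (-1 : F) • sq e₁ = sy e₀ e₁ := by
      rw [sq_add]
      module
    rw [h2]
    exact h _ _
  have hS2 : T (a + f) 1 * T a (-1) * T f (-1) ∈ r.ker := by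
    have h1 := hN.conj_mem _ hS1 (T (f - b) (Cfsg.sympForm m F b f)⁻¹)
    have h2 : ∀ x y z w : Matrix.symplecticGroup (Fin m) F, w * (x * y * z) * w⁻¹ = (w * x * w⁻¹) * (w * y * w⁻¹) * (w * z * w⁻¹) := by
      intro x y z w
      group
    rw [h2, conj_T, conj_T, conj_T, Matrix.mulVec_add, T_move hbf0, T_fix _ (by
      rw [sub_right, haf, hab, sub_zero])] at h1
    exact h1
  set S := T (a + f) 1 * T a (-1) * T f (-1) with hSdef
  have hSb : (S : Matrix (Fin m ⊕ Fin m) (Fin m ⊕ Fin m) F) *ᵥ b = b - a := by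
    rw [hSdef, Submonoid.coe_mul, Submonoid.coe_mul, ← Matrix.mulVec_mulVec, ← Matrix.mulVec_mulVec, T_apply f, hbf]
    have hba : Cfsg.sympForm m F b a = 0 := by rw [Cfsg.Agent.H5.Symp.swap, hab, neg_zero]
    have hfa : Cfsg.sympForm m F f a = 0 := by rw [Cfsg.Agent.H5.Symp.swap, haf, neg_zero]
    have h1 : b + ((-1 : F) * -1) • f = b + f := by simp
    rw [h1, T_apply a, add_left, hba, hfa]
    simp only [add_zero, mul_zero, zero_smul]
    rw [T_apply (a + f), add_left, add_right, add_right, hba, hbf, hfa, self]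
    simp only [zero_add, add_zero, one_mul]
    rw [neg_smul, one_smul]
    abel
  have hcom : ∀ c, T (b - a) c * T b (-c) ∈ r.ker := by
    intro c
    have h1 : S * T b c * S⁻¹ * T b (-c) ∈ r.ker := by
      have h2 : S * (T b c * S⁻¹ * (T b c)⁻¹) ∈ r.ker := mul_mem hS2 (hN.conj_mem _ (inv_mem hS2) _)
      have h3 : (T b c)⁻¹ = T b (-c) := by
        rw [inv_eq_iff_mul_eq_one, T_mul_T, add_neg_cancel, T_zero]
      rw [h3] at h2
      simpa only [mul_assoc] using h2
    rw [conj_T, hSb] at h1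
    exact h1
  have hfin : ∀ c, T a c ∈ r.ker := by
    intro c
    have h1 := hcom c
    have h2 : b - a = Sum.elim (e₁ + (-1 : F) • e₀) 0 := by
      ext i
      rcases i with i | i <;> simp [ha, hb]
      ring
    rw [h2, hb, T_mem_us, T_mem_us, ← us_add] at h1
    have h3 : c • sq (e₁ + (-1 : F) • e₀) + (-c) • sq e₁ = c • sq e₀ + sy (-c • e₀) e₁ := by
      rw [sq_add, sq_smul, sy_comm e₁, sy_smul_left, sy_smul_left]
      module
    rw [h3, us_add, MonoidHom.mem_ker, map_mul, h, mul_one, ← T_mem_us] at h1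
    exact h1
  exact eq_one_of_T r (v₀ := a) (by
    intro h0
    have := congrFun h0 (Sum.inl i₀)
    simp [ha, he₀] at this) (fun c => hfin c) g

end gen

theorem even_rep_bound {k : ℕ} (hk : 1 ≤ k) (h2 : (2 : F) = 0) {K V : Type*} [Field K] [IsAlgClosed K]
    [AddCommGroup V] [Module K V] [FiniteDimensional K V] (hK : ringChar K ≠ ringChar F)
    (r : Matrix.symplecticGroup (Fin (k + 1)) F →* Module.End K V) (hr : ∃ g, r g ≠ 1) :
    (Fintype.card F ^ (k + 1) - 1) * (Fintype.card F ^ (k + 1) - Fintype.card F) ≤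
      2 * (Fintype.card F + 1) * finrank K V := by
  classical
  obtain ⟨x, y, hxy⟩ : ∃ x y, r (us (sy x y)) ≠ 1 := by
    by_contra hcon
    push Not at hcon
    obtain ⟨g, hg⟩ := hr
    exact hg (eq_one_of_sy (by omega) r hcon g)
  obtain ⟨φ, hφ, h⟩ := Wt.main_bound_at (r := r) (u := us) hK us_add _ hxy
  refine (even_orbit h2 k φ ⟨x, y, hφ⟩).trans (Nat.mul_le_mul_left _ ?_)
  apply h
  intro φ' hφ'
  obtain ⟨M, hM, rfl⟩ := mem_Oo.mp hφ'
  exact ⟨_, al M, us_levi (Matrix.GeneralLinearGroup.mkOfDetNeZero M hM), fun x => rfl⟩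

end Cfsg.Agent.H15.WtSp
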