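import Mathlib
import Cfsg.Agent.H15_WtSpE
import Cfsg.Agent.H15_UGen2

set_option autoImplicit false
open Matrix Module

namespace Cfsg.Agent.H15.Sk

/-- conjugate transpose -/
def cj {F : Type*} [Field F] (σ : F →+* F) {a b : Type*} (X : Matrix a b F) : Matrix b a F := (X.map σ).transpose

section basics
variable {F : Type*} [Field F] (σ : F →+* F) {a b c : Type*} [Fintype a] [Fintype b] [Fintype c]

omit [Fintype a] [Fintype c] in
theorem cj_mul (X : Matrix a b F) (Y : Matrix b c F) : cj σ (X * Y) = cj σ Y * cj σ X := by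
  rw [cj, Matrix.map_mul, Matrix.transpose_mul]; rfl

omit [Fintype a] [Fintype b] in
theorem cj_add (X Y : Matrix a b F) : cj σ (X + Y) = cj σ X + cj σ Y := by
  ext i j; simp [cj]

omit [Fintype a] [Fintype b] in
theorem cj_sub (X Y : Matrix a b F) : cj σ (X - Y) = cj σ X - cj σ Y := by
  ext i j; simp [cj]

omit [Fintype a] [Fintype b] in
theorem cj_neg (X : Matrix a b F) : cj σ (-X) = -cj σ X := by
  ext i j; simp [cj]

omit [Fintype a] [Fintype b] in
theorem cj_cj (hσ : ∀ x, σ (σ x) = x) (X : Matrix a b F) : cj σ (cj σ X) = X := by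
  ext i j; simp [cj, hσ]

omit [Fintype a] in
theorem cj_one [DecidableEq a] : cj σ (1 : Matrix a a F) = 1 := by
  ext i j
  rw [cj, Matrix.transpose_apply, Matrix.map_apply, Matrix.one_apply, Matrix.one_apply]
  by_cases h : i = j
  · subst h; simp
  · simp [h, Ne.symm h]

theorem cj_det [DecidableEq a] (X : Matrix a a F) : (cj σ X).det = σ X.det := by
  rw [cj, Matrix.det_transpose, RingHom.map_det]; rfl

omit [Fintype a] [Fintype b] in
theorem cj_smul (x : F) (X : Matrix a b F) : cj σ (x • X) = σ x • cj σ X := by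
  ext i j; simp [cj]

/-- `x y^*` -/
def vv (x y : a → F) : Matrix a a F := Matrix.vecMulVec x (fun i => σ (y i))

omit [Fintype a] in
theorem vv_apply (x y : a → F) (i j : a) : vv σ x y i j = x i * σ (y j) := rfl

omit [Fintype a] in
theorem cj_vv (hσ : ∀ x, σ (σ x) = x) (x y : a → F) : cj σ (vv σ x y) = vv σ y x := by
  ext i j
  rw [cj, Matrix.transpose_apply, Matrix.map_apply, vv_apply, vv_apply, map_mul, hσ, mul_comm]

theorem mul_vv (M : Matrix a a F) (x y : a → F) : M * vv σ x y * cj σ M = vv σ (M *ᵥ x) (M *ᵥ y) := by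
  have h1 : (fun i => σ ((M *ᵥ y) i)) = (fun i => σ (y i)) ᵥ* cj σ M := by
    ext i
    simp only [Matrix.mulVec, dotProduct, map_sum, map_mul, Matrix.vecMul, cj, Matrix.transpose_apply, Matrix.map_apply]
    exact Finset.sum_congr rfl (fun j _ => mul_comm _ _)
  rw [vv, vv, Matrix.mul_vecMulVec, Matrix.vecMulVec_mul, h1]

end basics

variable {F : Type*} [Field F] (σ : F →+* F)

/-- fixed field -/
abbrev F₀ : Subfield F := RingHom.eqLocusField σ (RingHom.id F)

theorem mem_F₀ {x : F} : x ∈ F₀ σ ↔ σ x = x := Iff.rfl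

/-- skew-Hermitian matrices -/
def Sk (m : ℕ) : Submodule (F₀ σ) (Matrix (Fin m) (Fin m) F) where
  carrier := {B | cj σ B = -B}
  add_mem' := by
    intro a b ha hb
    simp only [Set.mem_setOf_eq] at *
    rw [cj_add, ha, hb, neg_add]
  zero_mem' := by
    show cj σ 0 = -0
    ext i j; simp [cj]
  smul_mem' := by
    intro c a ha
    simp only [Set.mem_setOf_eq] at *
    show cj σ ((c : F) • a) = -((c : F) • a)
    rw [cj_smul, ha, (mem_F₀ σ).mp c.2, smul_neg]

theorem mem_Sk {m : ℕ} {B : Matrix (Fin m) (Fin m) F} : B ∈ Sk σ m ↔ cj σ B = -B := Iff.rfl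

variable {σ} {m : ℕ}

/-- the action -/
def al (hσ : ∀ x, σ (σ x) = x) (M : Matrix (Fin m) (Fin m) F) : Sk σ m →ₗ[F₀ σ] Sk σ m where
  toFun B := ⟨M * B.1 * cj σ M, by
    have := B.2
    rw [mem_Sk] at this ⊢
    rw [cj_mul, cj_mul, cj_cj σ hσ, this, Matrix.neg_mul, Matrix.mul_neg, Matrix.mul_assoc]⟩
  map_add' a b := Subtype.ext (by simp [Matrix.mul_add, Matrix.add_mul])
  map_smul' c a := Subtype.ext (by
    show M * ((c : F) • a.1) * cj σ M = (c : F) • (M * a.1 * cj σ M)
    rw [Matrix.mul_smul, Matrix.smul_mul])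


theorem al_coe (hσ : ∀ x, σ (σ x) = x) (M : Matrix (Fin m) (Fin m) F) (B : Sk σ m) :
    (al hσ M B).1 = M * B.1 * cj σ M := rfl

/-- the parameters -/
structure Dat (σ : F →+* F) (κ : F) : Prop where
  inv : ∀ x, σ (σ x) = x
  κ0 : κ ≠ 0
  κs : σ κ = -κ

variable {κ : F} (D : Dat σ κ)

/-- `κ x x^*` -/
def sk (x : Fin m → F) : Sk σ m := ⟨κ • vv σ x x, by
  rw [mem_Sk, cj_smul, cj_vv σ D.inv, D.κs, neg_smul]⟩

/-- `κ (x y^* + y x^*)` -/
def sp (x y : Fin m → F) : Sk σ m := ⟨κ • (vv σ x y + vv σ y x), by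
  rw [mem_Sk, cj_smul, cj_add, cj_vv σ D.inv, cj_vv σ D.inv, D.κs, neg_smul, add_comm]⟩

theorem sk_coe (x : Fin m → F) : (sk D x).1 = κ • vv σ x x := rfl
theorem sp_coe (x y : Fin m → F) : (sp D x y).1 = κ • (vv σ x y + vv σ y x) := rfl

theorem al_sk (M : Matrix (Fin m) (Fin m) F) (x : Fin m → F) : al D.inv M (sk D x) = sk D (M *ᵥ x) := by
  apply Subtype.ext
  rw [al_coe, sk_coe, sk_coe, Matrix.mul_smul, Matrix.smul_mul, mul_vv]

theorem al_sp (M : Matrix (Fin m) (Fin m) F) (x y : Fin m → F) : al D.inv M (sp D x y) = sp D (M *ᵥ x) (M *ᵥ y) := by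
  apply Subtype.ext
  rw [al_coe, sp_coe, sp_coe, Matrix.mul_smul, Matrix.smul_mul, Matrix.mul_add, Matrix.add_mul, mul_vv, mul_vv]

theorem sk_add (x y : Fin m → F) : sk D (x + y) = sk D x + sk D y + sp D x y := by
  apply Subtype.ext
  rw [Submodule.coe_add, Submodule.coe_add, sk_coe, sk_coe, sk_coe, sp_coe]
  ext i j
  simp only [Matrix.smul_apply, Matrix.add_apply, vv_apply, Pi.add_apply, map_add, smul_eq_mul]
  ring

/-- the norm -/
def nm (D : Dat σ κ) (c : F) : F₀ σ := ⟨c * σ c, by rw [mem_F₀, map_mul, D.inv, mul_comm]⟩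

theorem sk_smul (c : F) (x : Fin m → F) : sk D (c • x) = nm D c • sk D x := by
  apply Subtype.ext
  show κ • vv σ (c • x) (c • x) = (c * σ c) • (κ • vv σ x x)
  ext i j
  simp only [Matrix.smul_apply, vv_apply, Pi.smul_apply, map_mul, smul_eq_mul]
  ring

theorem sp_add_left (x x' y : Fin m → F) : sp D (x + x') y = sp D x y + sp D x' y := by
  apply Subtype.ext
  rw [Submodule.coe_add, sp_coe, sp_coe, sp_coe]
  ext i j
  simp only [Matrix.smul_apply, Matrix.add_apply, vv_apply, Pi.add_apply, map_add, smul_eq_mul]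
  ring

theorem sp_smul_left (c : F₀ σ) (x y : Fin m → F) : sp D ((c : F) • x) y = c • sp D x y := by
  apply Subtype.ext
  show κ • (vv σ ((c : F) • x) y + vv σ y ((c : F) • x)) = (c : F) • (κ • (vv σ x y + vv σ y x))
  have hc : σ (c : F) = c := c.2
  ext i j
  simp only [Matrix.smul_apply, Matrix.add_apply, vv_apply, Pi.smul_apply, smul_eq_mul, map_mul, hc]
  ring

theorem sp_swap (c : F) (x y : Fin m → F) : sp D x (c • y) = sp D (σ c • x) y := by
  apply Subtype.ext
  rw [sp_coe, sp_coe]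
  ext i j
  simp only [Matrix.smul_apply, Matrix.add_apply, vv_apply, Pi.smul_apply, smul_eq_mul, map_mul, D.inv]
  ring

theorem sp_comm (x y : Fin m → F) : sp D x y = sp D y x := Subtype.ext (by
  rw [sp_coe, sp_coe, add_comm])

/-- the trace as a linear map to the fixed field -/
def tr (D : Dat σ κ) : F →ₗ[F₀ σ] F₀ σ where
  toFun x := ⟨x + σ x, by rw [mem_F₀, map_add, D.inv, add_comm]⟩
  map_add' x y := Subtype.ext (by
    show x + y + σ (x + y) = (x + σ x) + (y + σ y)
    rw [map_add]; ring)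
  map_smul' c x := Subtype.ext (by
    show (c : F) * x + σ ((c : F) * x) = (c : F) * (x + σ x)
    rw [map_mul, (mem_F₀ σ).mp c.2]; ring)

theorem tr_coe (x : F) : ((tr D x : F₀ σ) : F) = x + σ x := rfl

theorem sp_self (c : F) (x : Fin m → F) : sp D (c • x) x = tr D c • sk D x := by
  apply Subtype.ext
  show κ • (vv σ (c • x) x + vv σ x (c • x)) = (c + σ c) • (κ • vv σ x x)
  ext i j
  simp only [Matrix.smul_apply, Matrix.add_apply, vv_apply, Pi.smul_apply, smul_eq_mul, map_mul]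
  ring

theorem tr_nondeg (hne : ∃ x, σ x ≠ x) {a : F} (h : ∀ x, tr D (a * x) = 0) : a = 0 := by
  by_contra ha
  have h1 : ∀ x, x + σ x = 0 := by
    intro x
    have h2 := congrArg Subtype.val (h (a⁻¹ * x))
    rw [tr_coe, ← mul_assoc, mul_inv_cancel₀ ha, one_mul] at h2
    exact h2
  obtain ⟨x, hx⟩ := hne
  apply hx
  have h2 := h1 1
  rw [map_one] at h2
  linear_combination h1 x - x * h2

variable [Fintype F]

theorem trep (hne : ∃ x, σ x ≠ x) (g : F →ₗ[F₀ σ] F₀ σ) : ∃ a : F, ∀ x, g x = tr D (a * x) := by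
  haveI : Finite F := Finite.of_fintype F
  haveI : FiniteDimensional (F₀ σ) F := inferInstance
  let f : F →ₗ[F₀ σ] Module.Dual (F₀ σ) F :=
    { toFun := fun a => (tr D).comp (LinearMap.mulLeft (F₀ σ) a)
      map_add' := fun a b => by
        apply LinearMap.ext; intro x
        show tr D ((a + b) * x) = tr D (a * x) + tr D (b * x)
        rw [add_mul, map_add]
      map_smul' := fun c a => by
        apply LinearMap.ext; intro x
        show tr D (((c : F) * a) * x) = c • tr D (a * x)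
        rw [← map_smul]
        congr 1
        show (c : F) * a * x = (c : F) * (a * x)
        ring }
  have hinj : Function.Injective f := by
    rw [injective_iff_map_eq_zero]
    intro a ha
    apply tr_nondeg D hne
    intro x
    exact congrArg (fun t : Module.Dual (F₀ σ) F => t x) ha
  have hsurj := (LinearMap.injective_iff_surjective_of_finrank_eq_finrank (Subspace.dual_finrank_eq (K := F₀ σ) (V := F)).symm).mp hinj
  obtain ⟨a, ha⟩ := hsurj g
  exact ⟨a, fun x => by rw [← ha]; rfl⟩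

theorem exists_pv (hne : ∃ x, σ x ≠ x) (φ : Sk σ m →ₗ[F₀ σ] F₀ σ) (v : Fin m → F) :
    ∃ f : Fin m → F, ∀ x, φ (sp D x v) = tr D (f ⬝ᵥ x) := by
  have h1 : ∀ i : Fin m, ∃ a : F, ∀ μ : F, φ (sp D (Pi.single i μ) v) = tr D (a * μ) := by
    intro i
    exact trep D hne
      { toFun := fun μ => φ (sp D (Pi.single i μ) v)
        map_add' := fun a b => by rw [Pi.single_add, sp_add_left, map_add]
        map_smul' := fun c a => by
          have : (Pi.single i (c • a) : Fin m → F) = (c : F) • Pi.single i a := by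
            rw [← Pi.single_smul]; rfl
          rw [this, sp_smul_left, map_smul]; rfl }
  choose f hf using h1
  refine ⟨f, fun x => ?_⟩
  have h2 : x = ∑ i, Pi.single i (x i) := (Finset.univ_sum_single x).symm
  have h3 : ∀ s : Finset (Fin m), φ (sp D (∑ i ∈ s, Pi.single i (x i)) v) = tr D (∑ i ∈ s, f i * x i) := by
    intro s
    classical
    induction s using Finset.induction with
    | empty =>
      rw [Finset.sum_empty, Finset.sum_empty, map_zero]
      have : sp D (0 : Fin m → F) v = 0 := by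
        have := sp_smul_left D 0 (0 : Fin m → F) v
        rwa [smul_zero, zero_smul] at this
      rw [this, map_zero]
    | insert i s hi ih =>
      rw [Finset.sum_insert hi, Finset.sum_insert hi, sp_add_left, map_add, map_add, ih, hf]
  nth_rewrite 1 [h2]
  rw [h3]
  rfl

/-- the vector representing the polar form -/
noncomputable def pv (hne : ∃ x, σ x ≠ x) (φ : Sk σ m →ₗ[F₀ σ] F₀ σ) (v : Fin m → F) : Fin m → F :=
  (exists_pv D hne φ v).choose

theorem pv_dot (hne : ∃ x, σ x ≠ x) (φ : Sk σ m →ₗ[F₀ σ] F₀ σ) (v x : Fin m → F) :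
    φ (sp D x v) = tr D (pv D hne φ v ⬝ᵥ x) := (exists_pv D hne φ v).choose_spec x

theorem tr_dot_inj (hne : ∃ x, σ x ≠ x) {f g : Fin m → F} (h : ∀ x, tr D (f ⬝ᵥ x) = tr D (g ⬝ᵥ x)) : f = g := by
  ext i
  rw [← sub_eq_zero]
  apply tr_nondeg D hne
  intro μ
  have := h (Pi.single i μ)
  rw [dotProduct_single, dotProduct_single] at this
  rw [sub_mul, map_sub, this, sub_self]

theorem pv_self (hne : ∃ x, σ x ≠ x) (φ : Sk σ m →ₗ[F₀ σ] F₀ σ) (v : Fin m → F) :
    pv D hne φ v ⬝ᵥ v = (φ (sk D v) : F₀ σ) := by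
  rw [← sub_eq_zero]
  apply tr_nondeg D hne
  intro μ
  have h1 := pv_dot D hne φ v (μ • v)
  rw [sp_self, map_smul, dotProduct_smul, smul_eq_mul, smul_eq_mul] at h1
  rw [sub_mul, map_sub, mul_comm _ μ, ← h1]
  apply Subtype.ext
  show (μ + σ μ) * (φ (sk D v) : F) - (((φ (sk D v) : F₀ σ) : F) * μ + σ (((φ (sk D v) : F₀ σ) : F) * μ)) = 0
  rw [map_mul, (mem_F₀ σ).mp (φ (sk D v)).2]
  ring

theorem pv_smul (hne : ∃ x, σ x ≠ x) (φ : Sk σ m →ₗ[F₀ σ] F₀ σ) (c : F) (v : Fin m → F) :
    pv D hne φ (c • v) = σ c • pv D hne φ v := by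
  apply tr_dot_inj D hne
  intro x
  rw [← pv_dot, sp_swap, pv_dot, dotProduct_smul, smul_dotProduct]

omit [Fintype F] in
theorem ext_sk {φ φ' : Sk σ m →ₗ[F₀ σ] F₀ σ} (h : ∀ x, φ (sk D x) = φ' (sk D x)) : φ = φ' := by
  have h1 : ∀ x y, φ (sp D x y) = φ' (sp D x y) := by
    intro x y
    have h1 := h (x + y)
    rw [sk_add, map_add, map_add, map_add, map_add, h x, h y] at h1
    exact add_left_cancel h1
  let S : Matrix (Fin m) (Fin m) F →ₗ[F₀ σ] Sk σ m :=
    { toFun := fun X => ⟨κ • (X + cj σ X), by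
        rw [mem_Sk, cj_smul, cj_add, cj_cj σ D.inv, D.κs, add_comm, neg_smul]⟩
      map_add' := fun a b => Subtype.ext (by
        show κ • ((a + b) + cj σ (a + b)) = κ • (a + cj σ a) + κ • (b + cj σ b)
        rw [cj_add, ← smul_add]; congr 1; abel)
      map_smul' := fun c a => Subtype.ext (by
        show κ • ((c : F) • a + cj σ ((c : F) • a)) = (c : F) • (κ • (a + cj σ a))
        rw [cj_smul, (mem_F₀ σ).mp c.2, ← smul_add, smul_comm]) }
  have h2 : ∀ i j c, φ (S (Matrix.single i j c)) = φ' (S (Matrix.single i j c)) := by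
    intro i j c
    have h3 : S (Matrix.single i j c) = sp D (Pi.single i c) (Pi.single j 1) := by
      apply Subtype.ext
      rw [sp_coe]
      show κ • (Matrix.single i j c + cj σ (Matrix.single i j c)) = _
      congr 1
      ext a b
      simp only [Matrix.add_apply, cj, Matrix.transpose_apply, Matrix.map_apply, vv_apply, Matrix.single_apply, Pi.single_apply]
      simp only [apply_ite (DFunLike.coe σ), map_zero, map_one]
      have q1 : (i = a ∧ j = b) = (a = i ∧ b = j) := by rw [@eq_comm _ i, @eq_comm _ j]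
      have q2 : (i = b ∧ j = a) = (b = i ∧ a = j) := by rw [@eq_comm _ i, @eq_comm _ j]
      simp only [q1, q2]
      have key : ∀ (P Q R S : Prop) [Decidable P] [Decidable Q] [Decidable R] [Decidable S] (c d : F),
          (if P ∧ Q then c else 0) + (if R ∧ S then d else 0) =
          (if P then c else 0) * (if Q then 1 else 0) + (if S then 1 else 0) * (if R then d else 0) := by
        intro P Q R S _ _ _ _ c d
        by_cases hP : P <;> by_cases hQ : Q <;> by_cases hR : R <;> by_cases hS : S <;> simp [hP, hQ, hR, hS]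
      exact key _ _ _ _ _ _
    rw [h3, h1]
  have h3 : ∀ X, φ (S X) = φ' (S X) := by
    intro X
    rw [Matrix.matrix_eq_sum_single X]
    simp only [map_sum, h2]
  have h4 : ∀ (i : Fin m) (c : F₀ σ), φ (c • sk D (Pi.single i (1 : F))) = φ' (c • sk D (Pi.single i (1 : F))) := by
    intro i c
    rw [map_smul, map_smul, h]
  apply LinearMap.ext
  intro B
  have hB := B.2
  rw [mem_Sk] at hB
  have hBab : ∀ a b, σ (B.1 b a) = -B.1 a b := fun a b => congrFun (congrFun hB a) b
  have hd : ∀ i, σ (B.1 i i / κ) = B.1 i i / κ := by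
    intro i
    rw [map_div₀, hBab, D.κs, neg_div_neg_eq]
  have h5 : B = S (Matrix.of fun i j => if j < i then B.1 i j / κ else 0) +
      ∑ i, (⟨B.1 i i / κ, hd i⟩ : F₀ σ) • sk D (Pi.single i (1 : F)) := by
    apply Subtype.ext
    ext a b
    rw [Submodule.coe_add, Submodule.coe_sum, Matrix.add_apply, Matrix.sum_apply]
    have h6 : ∑ c, (((⟨B.1 c c / κ, hd c⟩ : F₀ σ) • sk D (Pi.single c (1 : F)) : Sk σ m) : Matrix (Fin m) (Fin m) F) a b =
        if a = b then B.1 a a else 0 := by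
      have h7 : ∀ c, (((⟨B.1 c c / κ, hd c⟩ : F₀ σ) • sk D (Pi.single c (1 : F)) : Sk σ m) : Matrix (Fin m) (Fin m) F) a b =
          (B.1 c c / κ) * (κ * ((Pi.single c (1 : F) : Fin m → F) a * σ ((Pi.single c (1 : F) : Fin m → F) b))) := fun c => rfl
      simp only [h7]
      by_cases hab : a = b
      · subst hab
        rw [if_pos rfl, Finset.sum_eq_single a]
        · simp only [Pi.single_eq_same, map_one, mul_one]
          rw [div_mul_cancel₀ _ D.κ0]
        · intro c _ hc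
          rw [Pi.single_eq_of_ne hc.symm]; simp
        · intro h; exact absurd (Finset.mem_univ _) h
      · rw [if_neg hab]
        apply Finset.sum_eq_zero
        intro c _
        by_cases hc : a = c
        · subst hc
          rw [Pi.single_eq_of_ne (Ne.symm hab)]; simp
        · rw [Pi.single_eq_of_ne hc]; simp
    rw [h6]
    show B.1 a b = κ * ((if b < a then B.1 a b / κ else 0) + σ (if a < b then B.1 b a / κ else 0)) + _
    have hκ := D.κ0
    rcases lt_trichotomy a b with hab | hab | hab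
    · rw [if_neg (not_lt.mpr hab.le), if_pos hab, if_neg hab.ne, map_div₀, hBab, D.κs, neg_div_neg_eq]
      field_simp
      ring
    · subst hab; simp
    · rw [if_pos hab, if_neg (not_lt.mpr hab.le), if_neg hab.ne', map_zero]
      field_simp
      ring
  rw [h5, map_add, map_add, h3, map_sum, map_sum]
  simp only [h4]


section orbit

open Cfsg.Agent.H15.Bruhat Cfsg.Agent.H15.WtSp

omit [Fintype F] in
theorem al_mul (M N : Matrix (Fin m) (Fin m) F) (φ : Sk σ m →ₗ[F₀ σ] F₀ σ) :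
    (φ ∘ₗ al D.inv M) ∘ₗ al D.inv N = φ ∘ₗ al D.inv (M * N) := by
  apply ext_sk D
  intro x
  rw [LinearMap.comp_apply, LinearMap.comp_apply, LinearMap.comp_apply, al_sk, al_sk, al_sk, Matrix.mulVec_mulVec]

omit [Fintype F] in
theorem comp_sk (M : Matrix (Fin m) (Fin m) F) (φ : Sk σ m →ₗ[F₀ σ] F₀ σ) (x : Fin m → F) :
    (φ ∘ₗ al D.inv M) (sk D x) = φ (sk D (M *ᵥ x)) := by
  rw [LinearMap.comp_apply, al_sk]

omit [Fintype F] in
theorem comp_sp (M : Matrix (Fin m) (Fin m) F) (φ : Sk σ m →ₗ[F₀ σ] F₀ σ) (x y : Fin m → F) :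
    (φ ∘ₗ al D.inv M) (sp D x y) = φ (sp D (M *ᵥ x) (M *ᵥ y)) := by
  rw [LinearMap.comp_apply, al_sp]

open Classical in
/-- the orbit under the matrices with determinant in the fixed field -/
noncomputable def Os (φ : Sk σ m →ₗ[F₀ σ] F₀ σ) : Finset (Sk σ m →ₗ[F₀ σ] F₀ σ) :=
  letI : Fintype (Sk σ m →ₗ[F₀ σ] F₀ σ) := @Fintype.ofFinite _ (Module.finite_of_finite (F₀ σ))
  Finset.univ.filter (fun φ' => ∃ M : Matrix (Fin m) (Fin m) F, M.det ≠ 0 ∧ σ M.det = M.det ∧ φ' = φ ∘ₗ al D.inv M)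

theorem mem_Os {φ φ' : Sk σ m →ₗ[F₀ σ] F₀ σ} : φ' ∈ Os D φ ↔ ∃ M : Matrix (Fin m) (Fin m) F, M.det ≠ 0 ∧
    σ M.det = M.det ∧ φ' = φ ∘ₗ al D.inv M := by
  classical
  simp [Os]

include D in
omit [Fintype F] in
/-- norms of two functionals agree everywhere only if they are proportional -/
theorem norm_eq (hne : ∃ x, σ x ≠ x) {g g' : Fin m → F} (hg : g ≠ 0)
    (h : ∀ x, (g ⬝ᵥ x) * σ (g ⬝ᵥ x) = (g' ⬝ᵥ x) * σ (g' ⬝ᵥ x)) : ∃ ζ : F, ζ * σ ζ = 1 ∧ g' = ζ • g := by
  obtain ⟨i, hi⟩ := Function.ne_iff.mp hg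
  simp only [Pi.zero_apply] at hi
  have h1 := h (Pi.single i 1)
  simp only [dotProduct_single_one] at h1
  have hσi : σ (g i) ≠ 0 := by simpa using hi
  have hζ : g' i / g i * σ (g' i / g i) = 1 := by
    rw [map_div₀]
    field_simp
    exact h1.symm
  refine ⟨g' i / g i, hζ, ?_⟩
  ext j
  rw [Pi.smul_apply, smul_eq_mul]
  have h2 : g i * σ (g j) = g' i * σ (g' j) := by
    rw [← sub_eq_zero]
    apply tr_nondeg D hne
    intro α
    apply Subtype.ext
    rw [tr_coe]
    have h3 := h (Pi.single i α + Pi.single j 1)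
    have h4 := h (Pi.single i α)
    have h5 := h (Pi.single j 1)
    simp only [dotProduct_add, dotProduct_single, mul_one, map_add, map_mul] at h3 h4 h5
    simp only [map_mul, map_sub, D.inv]
    show _ = (0 : F)
    linear_combination h3 - h4 - h5
  have h3 := congrArg σ h2
  rw [map_mul, map_mul, D.inv, D.inv] at h3
  have hσg' : σ (g' i) ≠ 0 := by
    intro h0
    rw [h0, mul_zero, mul_eq_zero] at h1
    rcases h1 with h1 | h1
    · exact hi h1
    · exact hσi h1
  field_simp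
  have : g' j * g i * σ (g' i) = g' i * g j * σ (g' i) := by
    linear_combination (-g i) * h3 + g j * h1
  exact mul_right_cancel₀ hσg' this

open Classical in
/-- lower bound for the orbit of a Hermitian form -/
theorem sk_orbit (hne : ∃ x, σ x ≠ x) (hN : ∀ a : F, σ a = a → ∃ l : F, l * σ l = a) {q : ℕ}
    (hqF : Fintype.card F = q ^ 2) (hq0 : Fintype.card (F₀ σ) = q)
    (hq1 : (Finset.univ.filter (fun ζ : F => ζ * σ ζ = 1)).card ≤ q + 1) {k : ℕ} (hk : 1 ≤ k)
    (φ : Sk σ (k + 1) →ₗ[F₀ σ] F₀ σ) (hφ : φ ≠ 0) :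
    q ^ (2 * (k + 1)) - 1 ≤ (q + 1) * (Os D φ).card := by
  have hq2 : 2 ≤ q := by rw [← hq0]; exact Fintype.one_lt_card
  obtain ⟨v, hv⟩ : ∃ v, φ (sk D v) ≠ 0 := by
    by_contra hcon
    push Not at hcon
    exact hφ (ext_sk D (fun x => by rw [hcon x, LinearMap.zero_apply]))
  have hallv : ∀ a : F₀ σ, a ≠ 0 → ∃ w, φ (sk D w) = a := by
    intro a _
    obtain ⟨c, hc⟩ := hN ((a / φ (sk D v) : F₀ σ) : F) (a / φ (sk D v)).2
    refine ⟨c • v, ?_⟩
    rw [sk_smul, map_smul]
    have : nm D c = a / φ (sk D v) := Subtype.ext hc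
    rw [this, smul_eq_mul, div_mul_cancel₀ _ hv]
  by_cases hcase : ∃ u, φ (sk D u) = 0 ∧ pv D hne φ u ≠ 0
  · obtain ⟨u, hu, hfu⟩ := hcase
    -- non-zero values
    have key : ∀ p : {c : F₀ σ // c ≠ 0} × (Fin k → F), ∃ M : Matrix (Fin (k + 1)) (Fin (k + 1)) F, M.det = 1 ∧
        (φ ∘ₗ al D.inv M) (sk D (Pi.single 0 1)) = p.1.1 ∧
        ∀ x, (φ ∘ₗ al D.inv M) (sp D x (Pi.single 0 1)) = tr D ((Fin.cons (p.1.1 : F) p.2 : Fin (k + 1) → F) ⬝ᵥ x) := by
      rintro ⟨⟨c, hc⟩, t⟩
      obtain ⟨w, hw⟩ := hallv c hc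
      have hw2 : pv D hne φ w ⬝ᵥ w = (c : F) := by
        rw [pv_self, hw]
      obtain ⟨M, hM, hM1, hM2⟩ := pair_move (m := k + 1) (by omega) (v := Pi.single 0 1)
        (f := (Fin.cons (c : F) t : Fin (k + 1) → F)) (c := (c : F)) (by
          intro h0; exact hc (Subtype.ext h0)) (by simp) hw2
      refine ⟨M, hM, ?_, ?_⟩
      · rw [comp_sk, hM1, hw]
      · intro x
        rw [comp_sp, hM1, pv_dot D hne, Matrix.dotProduct_mulVec, hM2]
    choose M hM1 hM2 hM3 using key
    have hO1 : (q - 1) * q ^ (2 * k) ≤ ((Os D φ).filter (fun φ' => φ' (sk D (Pi.single 0 1)) ≠ 0)).card := by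
      have h3 : (Finset.univ.image (fun p => φ ∘ₗ al D.inv (M p))) ⊆
          (Os D φ).filter (fun φ' => φ' (sk D (Pi.single 0 1)) ≠ 0) := by
        intro φ' hφ'
        obtain ⟨p, _, rfl⟩ := Finset.mem_image.mp hφ'
        rw [Finset.mem_filter, mem_Os]
        refine ⟨⟨M p, by rw [hM1]; exact one_ne_zero, by rw [hM1, map_one], rfl⟩, ?_⟩
        rw [hM2]
        exact p.1.2
      have h4 := Finset.card_le_card h3
      rw [Finset.card_image_of_injective _ (by
        rintro ⟨⟨c, hc⟩, t⟩ ⟨⟨c', hc'⟩, t'⟩ hpp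
        have h5 : (Fin.cons (c : F) t : Fin (k + 1) → F) = (Fin.cons (c' : F) t' : Fin (k + 1) → F) := by
          apply tr_dot_inj D hne
          intro x
          rw [← hM3 ⟨⟨c, hc⟩, t⟩ x, ← hM3 ⟨⟨c', hc'⟩, t'⟩ x]
          exact congrArg (fun t : Sk σ (k + 1) →ₗ[F₀ σ] F₀ σ => t (sp D x (Pi.single 0 1))) hpp
        obtain ⟨h6, h7⟩ := Fin.cons_inj.mp h5
        have h8 : c = c' := Subtype.ext h6
        subst h8; subst h7
        rfl), Finset.card_univ, Fintype.card_prod, Fintype.card_subtype_compl, Fintype.card_subtype_eq,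
        Fintype.card_fun, Fintype.card_fin, hq0, hqF, ← pow_mul] at h4
      exact h4
    -- zero values
    have hO0 : q ^ (2 * k) - 1 ≤ (q + 1) * ((Os D φ).filter (fun φ' => ¬ φ' (sk D (Pi.single 0 1)) ≠ 0)).card := by
      have hu0 : u ≠ 0 := by
        rintro rfl
        apply hfu
        have := pv_smul D hne φ 0 (0 : Fin (k + 1) → F)
        rw [smul_zero, map_zero, zero_smul] at this
        exact this
      obtain ⟨M₀, hM₀, hM₀u⟩ := WtSL.move (m := k + 1) (by omega) (y := Pi.single (0 : Fin (k + 1)) (1 : F)) (by simp) hu0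
      have h2 : (pv D hne φ u ᵥ* M₀) ⬝ᵥ (Pi.single 0 1) = 0 := by
        rw [← Matrix.dotProduct_mulVec, hM₀u, pv_self, hu]; rfl
      rw [dotProduct_single_one] at h2
      have h3 : (pv D hne φ u ᵥ* M₀) = (Fin.cons 0 (Fin.tail (pv D hne φ u ᵥ* M₀)) : Fin (k + 1) → F) := by
        rw [← h2, Fin.cons_self_tail]
      obtain ⟨t₀, ht₀⟩ : ∃ t₀, t₀ = Fin.tail (pv D hne φ u ᵥ* M₀) := ⟨_, rfl⟩
      rw [← ht₀] at h3
      have ht₀0 : t₀ ≠ 0 := by
        intro h0
        apply hfu
        have h5 : pv D hne φ u ᵥ* M₀ = 0 := by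
          rw [h3, h0]
          ext i
          refine Fin.cases ?_ (fun j => ?_) i <;> simp
        have h6 : IsUnit M₀.det := by rw [hM₀]; exact isUnit_one
        have := Matrix.vecMul_injective_of_isUnit ((Matrix.isUnit_iff_isUnit_det M₀).mpr h6)
        exact this (h5.trans (Matrix.zero_vecMul M₀).symm)
      -- general element
      have hgen : ∀ h : Matrix (Fin k) (Fin k) F, h.det ≠ 0 → σ h.det = h.det →
          (φ ∘ₗ al D.inv (M₀ * ins 0 0 1 h)) ∈ ((Os D φ).filter (fun φ' => ¬ φ' (sk D (Pi.single 0 1)) ≠ 0)) ∧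
          ∀ x, (φ ∘ₗ al D.inv (M₀ * ins 0 0 1 h)) (sp D x (Pi.single 0 1)) =
            tr D ((Fin.cons 0 (t₀ ᵥ* h) : Fin (k + 1) → F) ⬝ᵥ x) := by
        intro h hh hhσ
        refine ⟨?_, ?_⟩
        · rw [Finset.mem_filter, mem_Os]
          refine ⟨⟨M₀ * ins 0 0 1 h, ?_, ?_, rfl⟩, ?_⟩
          · rw [Matrix.det_mul, hM₀, WtSL.det_ins]; simpa using hh
          · rw [Matrix.det_mul, hM₀, WtSL.det_ins]; simpa using hhσ
          · rw [not_not, comp_sk, ← Matrix.mulVec_mulVec, ins_mulVec_e0, hM₀u, hu]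
        · intro x
          rw [comp_sp, ← Matrix.mulVec_mulVec, ← Matrix.mulVec_mulVec, ins_mulVec_e0, hM₀u, pv_dot D hne,
            Matrix.dotProduct_mulVec, Matrix.dotProduct_mulVec, h3, cons_vecMul_ins]
      have hinj : ∀ h h' : Matrix (Fin k) (Fin k) F, h.det ≠ 0 → σ h.det = h.det → h'.det ≠ 0 → σ h'.det = h'.det →
          φ ∘ₗ al D.inv (M₀ * ins 0 0 1 h) = φ ∘ₗ al D.inv (M₀ * ins 0 0 1 h') → t₀ ᵥ* h = t₀ ᵥ* h' := by
        intro h h' a1 a2 b1 b2 heq
        have h5 : (Fin.cons 0 (t₀ ᵥ* h) : Fin (k + 1) → F) = (Fin.cons 0 (t₀ ᵥ* h') : Fin (k + 1) → F) := by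
          apply tr_dot_inj D hne
          intro x
          rw [← (hgen h a1 a2).2 x, ← (hgen h' b1 b2).2 x]
          exact congrArg (fun t : Sk σ (k + 1) →ₗ[F₀ σ] F₀ σ => t (sp D x (Pi.single 0 1))) heq
        exact (Fin.cons_inj.mp h5).2
      rcases Nat.lt_or_ge k 2 with hk2 | hk2
      · have hk1 : k = 1 := by omega
        subst hk1
        let g : {a : F₀ σ // a ≠ 0} → (Sk σ (1 + 1) →ₗ[F₀ σ] F₀ σ) := fun a =>
          φ ∘ₗ al D.inv (M₀ * ins 0 0 1 ((a.1 : F) • (1 : Matrix (Fin 1) (Fin 1) F)))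
        have hdet : ∀ a : {a : F₀ σ // a ≠ 0}, ((a.1 : F) • (1 : Matrix (Fin 1) (Fin 1) F)).det = (a.1 : F) := by
          intro a
          rw [Matrix.det_smul, Matrix.det_one]; simp
        have ha1 : ∀ a : {a : F₀ σ // a ≠ 0}, ((a.1 : F) • (1 : Matrix (Fin 1) (Fin 1) F)).det ≠ 0 := by
          intro a
          rw [hdet]
          intro h0
          exact a.2 (Subtype.ext h0)
        have ha2 : ∀ a : {a : F₀ σ // a ≠ 0}, σ ((a.1 : F) • (1 : Matrix (Fin 1) (Fin 1) F)).det =
            ((a.1 : F) • (1 : Matrix (Fin 1) (Fin 1) F)).det := by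
          intro a
          rw [hdet]
          exact a.1.2
        have h5 : Finset.univ.image g ⊆ ((Os D φ).filter (fun φ' => ¬ φ' (sk D (Pi.single 0 1)) ≠ 0)) := by
          intro φ' hφ'
          obtain ⟨a, _, rfl⟩ := Finset.mem_image.mp hφ'
          exact (hgen _ (ha1 a) (ha2 a)).1
        have h6 := Finset.card_le_card h5
        rw [Finset.card_image_of_injective _ (by
          intro a b hab
          have h7 := hinj _ _ (ha1 a) (ha2 a) (ha1 b) (ha2 b) hab
          rw [Matrix.vecMul_smul, Matrix.vecMul_smul, Matrix.vecMul_one] at h7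
          have h8 : ((a.1 : F) - (b.1 : F)) • t₀ = 0 := by rw [sub_smul, h7, sub_self]
          rcases smul_eq_zero.mp h8 with h9 | h9
          · exact Subtype.ext (Subtype.ext (sub_eq_zero.mp h9))
          · exact absurd h9 ht₀0), Finset.card_univ, Fintype.card_subtype_compl, Fintype.card_subtype_eq, hq0] at h6
        have h7 : q ^ (2 * 1) - 1 = (q + 1) * (q - 1) := by
          rw [mul_one]
          have := Nat.sq_sub_sq q 1
          rwa [one_pow] at this
        rw [h7]
        exact Nat.mul_le_mul_left _ h6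
      · have hmv : ∀ t : {t : Fin k → F // t ≠ 0}, ∃ h : Matrix (Fin k) (Fin k) F, h.det = 1 ∧ t₀ ᵥ* h = t.1 := by
          rintro ⟨t, ht⟩
          obtain ⟨h, hh, hh2⟩ := WtSL.move hk2 ht₀0 ht
          exact ⟨h.transpose, by rw [Matrix.det_transpose, hh], by rw [Matrix.vecMul_transpose, hh2]⟩
        choose hm hm1 hm2 using hmv
        let g : {t : Fin k → F // t ≠ 0} → (Sk σ (k + 1) →ₗ[F₀ σ] F₀ σ) := fun t => φ ∘ₗ al D.inv (M₀ * ins 0 0 1 (hm t))
        have ha1 : ∀ t, (hm t).det ≠ 0 := fun t => by rw [hm1]; exact one_ne_zero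
        have ha2 : ∀ t, σ (hm t).det = (hm t).det := fun t => by rw [hm1, map_one]
        have h5 : Finset.univ.image g ⊆ ((Os D φ).filter (fun φ' => ¬ φ' (sk D (Pi.single 0 1)) ≠ 0)) := by
          intro φ' hφ'
          obtain ⟨a, _, rfl⟩ := Finset.mem_image.mp hφ'
          exact (hgen _ (ha1 a) (ha2 a)).1
        have h6 := Finset.card_le_card h5
        rw [Finset.card_image_of_injective _ (by
          intro a b hab
          have h7 := hinj _ _ (ha1 a) (ha2 a) (ha1 b) (ha2 b) hab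
          rw [hm2, hm2] at h7
          exact Subtype.ext h7), Finset.card_univ, Fintype.card_subtype_compl, Fintype.card_subtype_eq, Fintype.card_fun,
          Fintype.card_fin, hqF, ← pow_mul] at h6
        exact h6.trans (Nat.le_mul_of_pos_left _ (by omega))
    have hsum := Finset.card_filter_add_card_filter_not (s := Os D φ) (fun φ' => φ' (sk D (Pi.single 0 1)) ≠ 0)
    rw [← hsum, Nat.mul_add (q + 1)]
    have h1 : q ^ (2 * (k + 1)) - 1 = (q + 1) * ((q - 1) * q ^ (2 * k)) + (q ^ (2 * k) - 1) := by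
      have h2 : (q + 1) * (q - 1) = q ^ 2 - 1 := by
        have := Nat.sq_sub_sq q 1
        rw [one_pow] at this
        exact this.symm
      have h3 : 1 ≤ q ^ (2 * k) := Nat.one_le_pow _ _ (by omega)
      have h4 : 1 ≤ q ^ 2 := Nat.one_le_pow _ _ (by omega)
      rw [← mul_assoc, h2, Nat.mul_add, mul_one, pow_add, Nat.sub_mul, one_mul, mul_comm (q ^ 2)]
      have h5 : q ^ (2 * k) ≤ q ^ (2 * k) * q ^ 2 := Nat.le_mul_of_pos_right _ (by omega)
      omega
    rw [h1]
    exact Nat.add_le_add (Nat.mul_le_mul_left _ hO1) hO0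
  · push Not at hcase
    obtain ⟨f, hf⟩ : ∃ f, f = pv D hne φ v := ⟨_, rfl⟩
    have hfv : f ⬝ᵥ v = (φ (sk D v) : F₀ σ) := by rw [hf, pv_self]
    have hfv0 : f ⬝ᵥ v ≠ 0 := by
      rw [hfv]
      intro h0
      exact hv (Subtype.ext h0)
    have hiso : ∀ w, f ⬝ᵥ w = 0 → φ (sk D w) = 0 := by
      intro w hw
      by_contra hne'
      obtain ⟨l, hl⟩ := hN ((-(φ (sk D v)) / φ (sk D w) : F₀ σ) : F) (-(φ (sk D v)) / φ (sk D w)).2
      have hl' : nm D l = -(φ (sk D v)) / φ (sk D w) := Subtype.ext hl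
      have h1 : φ (sk D (v + l • w)) = 0 := by
        rw [sk_add, map_add, map_add, sk_smul, map_smul, hl', smul_eq_mul, div_mul_cancel₀ _ hne', sp_comm, pv_dot D hne,
          dotProduct_smul, ← hf, hw, smul_zero, map_zero]
        ring
      have h2 := hcase _ h1
      have h3 : ∀ μ : F, tr D μ * φ (sk D v) = 0 := by
        intro μ
        have h4 := pv_dot D hne φ (v + l • w) (μ • v)
        rw [h2, zero_dotProduct, map_zero, sp_comm, sp_add_left, map_add, sp_comm _ v, sp_self, map_smul, pv_dot D hne,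
          pv_smul, ← hf, smul_dotProduct, dotProduct_smul, hw, smul_zero, smul_zero, map_zero, add_zero] at h4
        exact h4
      apply hv
      rcases mul_eq_zero.mp (h3 κ) with h5 | h5
      · have h6 : ∀ x, tr D (1 * x) = 0 := by
          intro x
          rw [one_mul]
          exact (mul_eq_zero.mp (h3 x)).resolve_right hv
        exact absurd (tr_nondeg D hne h6) one_ne_zero
      · exact h5
    have hrad : ∀ w, f ⬝ᵥ w = 0 → pv D hne φ w = 0 := fun w hw => hcase w (hiso w hw)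
    have hsq : ∀ x, φ (sk D x) = nm D ((f ⬝ᵥ x) / (f ⬝ᵥ v)) * φ (sk D v) := by
      intro x
      obtain ⟨t, ht⟩ : ∃ t, t = (f ⬝ᵥ x) / (f ⬝ᵥ v) := ⟨_, rfl⟩
      have h5 : x = t • v + (x - t • v) := by abel
      have h6 : f ⬝ᵥ (x - t • v) = 0 := by
        rw [dotProduct_sub, dotProduct_smul, smul_eq_mul, ht, div_mul_cancel₀ _ hfv0, sub_self]
      rw [← ht]
      nth_rewrite 1 [h5]
      rw [sk_add, map_add, map_add, hiso _ h6, sk_smul, map_smul, pv_dot D hne, hrad _ h6, zero_dotProduct, map_zero,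
        add_zero, add_zero, smul_eq_mul]
    have hf0 : f ≠ 0 := by
      rintro h0
      rw [h0, zero_dotProduct] at hfv0
      exact hfv0 rfl
    have key : ∀ g : Fin (k + 1) → F, g ≠ 0 → ∃ M : Matrix (Fin (k + 1)) (Fin (k + 1)) F, M.det = 1 ∧
        ∀ x, (φ ∘ₗ al D.inv M) (sk D x) = nm D ((g ⬝ᵥ x) / (f ⬝ᵥ v)) * φ (sk D v) := by
      intro g hg
      obtain ⟨M, hM, hMf⟩ := WtSL.move (m := k + 1) (by omega) hf0 hg
      refine ⟨M.transpose, by rw [Matrix.det_transpose, hM], ?_⟩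
      intro x
      rw [comp_sk, hsq, Matrix.dotProduct_mulVec, Matrix.vecMul_transpose, hMf]
    choose! M hM1 hM2 using key
    have h3 : ((Finset.univ.filter (fun g : Fin (k + 1) → F => g ≠ 0)).image (fun g => φ ∘ₗ al D.inv (M g))) ⊆ Os D φ := by
      intro φ' hφ'
      obtain ⟨p, hp, rfl⟩ := Finset.mem_image.mp hφ'
      have hp' := (Finset.mem_filter.mp hp).2
      rw [mem_Os]
      exact ⟨M p, by rw [hM1 p hp']; exact one_ne_zero, by rw [hM1 p hp', map_one], rfl⟩
    have h4 := Finset.card_le_mul_card_image (f := fun g => φ ∘ₗ al D.inv (M g))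
      (Finset.univ.filter (fun g : Fin (k + 1) → F => g ≠ 0)) (q + 1) (by
        intro b hb
        obtain ⟨g, hg, rfl⟩ := Finset.mem_image.mp hb
        have hg0 := (Finset.mem_filter.mp hg).2
        refine le_trans (Finset.card_le_card (t := (Finset.univ.filter (fun ζ : F => ζ * σ ζ = 1)).image (fun ζ => ζ • g)) ?_)
          (le_trans Finset.card_image_le hq1)
        intro g' hg'
        obtain ⟨hg'1, hg'2⟩ := Finset.mem_filter.mp hg'
        have hg'0 := (Finset.mem_filter.mp hg'1).2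
        obtain ⟨ζ, hζ, hζg⟩ := norm_eq D hne hg0 (g' := g') (by
          intro x
          have h6 := congrArg (fun t : Sk σ (k + 1) →ₗ[F₀ σ] F₀ σ => t (sk D x)) hg'2
          simp only [hM2 g' hg'0, hM2 g hg0] at h6
          have h7 := congrArg Subtype.val (mul_right_cancel₀ hv h6)
          simp only [nm, map_div₀] at h7
          have hσ0 : σ (f ⬝ᵥ v) ≠ 0 := by simpa using hfv0
          field_simp at h7
          linear_combination -h7)
        rw [Finset.mem_image]
        exact ⟨ζ, Finset.mem_filter.mpr ⟨Finset.mem_univ _, hζ⟩, hζg.symm⟩)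
    have h5 : (Finset.univ.filter (fun g : Fin (k + 1) → F => g ≠ 0)).card = q ^ (2 * (k + 1)) - 1 := by
      rw [← Fintype.card_subtype, Fintype.card_subtype_compl, Fintype.card_subtype_eq,
      Fintype.card_fun, Fintype.card_fin, hqF, ← pow_mul]
    rw [h5] at h4
    exact h4.trans (Nat.mul_le_mul_left _ (Finset.card_le_card h3))

end orbit

end Cfsg.Agent.H15.Sk
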