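import Mathlib

set_option autoImplicit false

namespace Cfsg.Agent.H15.Sour

open Matrix

variable {F : Type*} [Field F]

/-- a non-scalar linear map moves some vector off its line -/
theorem exists_moved {n : ℕ} (A : Matrix (Fin n) (Fin n) F) (hA : ∀ a : F, A ≠ Matrix.scalar (Fin n) a) :
    ∃ x : Fin n → F, ∀ a : F, A.mulVec x ≠ a • x := by
  by_contra hcon
  push Not at hcon
  rcases Nat.eq_zero_or_pos n with h0 | hpos
  · subst h0
    exact hA 0 (by ext i; exact i.elim0)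
  haveI : NeZero n := ⟨by omega⟩
  choose f hf using hcon
  apply hA (f (Pi.single 0 1))
  have key : ∀ i : Fin n, f (Pi.single i 1) = f (Pi.single 0 1) := by
    intro i
    by_cases hi : i = 0
    · subst hi; rfl
    have h1 := hf (Pi.single i 1 + Pi.single 0 1)
    rw [Matrix.mulVec_add, hf, hf] at h1
    have h2 := congrFun h1 i
    have h3 := congrFun h1 0
    simp [hi, Ne.symm hi] at h2 h3
    rw [h2, h3]
  ext i j
  have h1 := congrFun (hf (Pi.single j 1)) i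
  rw [Matrix.mulVec_single_one] at h1
  have h2 : A i j = f (Pi.single j 1) * (Pi.single j 1 : Fin n → F) i := h1
  rw [h2, key j]
  by_cases h : i = j
  · subst h; simp
  · simp [h, Matrix.scalar_apply, Matrix.diagonal_apply]

theorem eta3 (M : Matrix (Fin 3) (Fin 3) F) :
    M = !![M 0 0, M 0 1, M 0 2; M 1 0, M 1 1, M 1 2; M 2 0, M 2 1, M 2 2] := by
  ext i j; fin_cases i <;> fin_cases j <;> rfl

theorem eta2 (M : Matrix (Fin 2) (Fin 2) F) :
    M = !![M 0 0, M 0 1; M 1 0, M 1 1] := by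
  ext i j; fin_cases i <;> fin_cases j <;> rfl

/-- 3x3 non-scalar: first column `(c,1,0)` -/
theorem form3 (A : Matrix (Fin 3) (Fin 3) F) (hA : ∀ a : F, A ≠ Matrix.scalar (Fin 3) a) (c : F) :
    ∃ (P : Matrix (Fin 3) (Fin 3) F) (p q r s t w : F), P.det ≠ 0 ∧
      A * P = P * !![c, p, q; 1, r, s; 0, t, w] := by
  obtain ⟨x, hx⟩ := exists_moved A hA
  set y := A.mulVec x - c • x with hy
  have hli : LinearIndependent F ![x, y] := by
    rw [LinearIndependent.pair_iff' (fun h => hx 0 (by rw [h]; simp))]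
    intro a ha
    apply hx (a + c)
    rw [add_smul, ha, hy]
    abel
  obtain ⟨z, hz⟩ := exists_linearIndependent_snoc_of_lt_finrank hli (by simp)
  set P : Matrix (Fin 3) (Fin 3) F := (Matrix.of (Fin.snoc ![x, y] z : Fin 3 → (Fin 3 → F))).transpose with hP
  have hdet : P.det ≠ 0 := by
    rw [hP, Matrix.det_transpose]
    have h1 : IsUnit (Matrix.of (Fin.snoc ![x, y] z : Fin 3 → (Fin 3 → F))) :=
      Matrix.linearIndependent_rows_iff_isUnit.mp hz
    exact ((Matrix.isUnit_iff_isUnit_det _).mp h1).ne_zero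
  have hunit : IsUnit P.det := isUnit_iff_ne_zero.mpr hdet
  set M := P⁻¹ * A * P with hM
  have hAM : A * P = P * M := by
    rw [hM, ← mul_assoc, ← mul_assoc, Matrix.mul_nonsing_inv _ hunit, one_mul]
  have hPx : P.mulVec (Pi.single 0 1) = x := by
    rw [Matrix.mulVec_single_one]
    rfl
  have hPy : P.mulVec (Pi.single 1 1) = y := by
    rw [Matrix.mulVec_single_one]
    rfl
  have hcol : M.mulVec (Pi.single 0 1) = c • Pi.single 0 1 + Pi.single 1 1 := by
    have h1 : P.mulVec (M.mulVec (Pi.single 0 1)) = P.mulVec (c • Pi.single 0 1 + Pi.single 1 1) := by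
      rw [Matrix.mulVec_mulVec, ← hAM, ← Matrix.mulVec_mulVec, hPx, Matrix.mulVec_add,
        Matrix.mulVec_smul, hPx, hPy, hy]
      abel
    have h2 := congrArg (P⁻¹).mulVec h1
    simpa only [Matrix.mulVec_mulVec, ← mul_assoc, Matrix.nonsing_inv_mul _ hunit,
      Matrix.one_mulVec, one_mul] using h2
  rw [Matrix.mulVec_single_one] at hcol
  have h0 : M 0 0 = c := by have := congrFun hcol 0; simpa using this
  have h1 : M 1 0 = 1 := by have := congrFun hcol 1; simpa using this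
  have h2 : M 2 0 = 0 := by have := congrFun hcol 2; simpa using this
  refine ⟨P, M 0 1, M 0 2, M 1 1, M 1 2, M 2 1, M 2 2, hdet, ?_⟩
  rw [hAM]
  conv_lhs => rw [eta3 M, h0, h1, h2]

/-- 2x2 non-scalar: first column `(c,1)` -/
theorem form2 (A : Matrix (Fin 2) (Fin 2) F) (hA : ∀ a : F, A ≠ Matrix.scalar (Fin 2) a) (c : F) :
    ∃ (P : Matrix (Fin 2) (Fin 2) F) (p r : F), P.det ≠ 0 ∧
      A * P = P * !![c, p; 1, r] := by
  obtain ⟨x, hx⟩ := exists_moved A hA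
  set y := A.mulVec x - c • x with hy
  have hli : LinearIndependent F ![x, y] := by
    rw [LinearIndependent.pair_iff' (fun h => hx 0 (by rw [h]; simp))]
    intro a ha
    apply hx (a + c)
    rw [add_smul, ha, hy]
    abel
  set P : Matrix (Fin 2) (Fin 2) F := (Matrix.of (![x, y] : Fin 2 → (Fin 2 → F))).transpose with hP
  have hdet : P.det ≠ 0 := by
    rw [hP, Matrix.det_transpose]
    have h1 : IsUnit (Matrix.of (![x, y] : Fin 2 → (Fin 2 → F))) :=
      Matrix.linearIndependent_rows_iff_isUnit.mp hli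
    exact ((Matrix.isUnit_iff_isUnit_det _).mp h1).ne_zero
  have hunit : IsUnit P.det := isUnit_iff_ne_zero.mpr hdet
  set M := P⁻¹ * A * P with hM
  have hAM : A * P = P * M := by
    rw [hM, ← mul_assoc, ← mul_assoc, Matrix.mul_nonsing_inv _ hunit, one_mul]
  have hPx : P.mulVec (Pi.single 0 1) = x := by
    rw [Matrix.mulVec_single_one]
    rfl
  have hPy : P.mulVec (Pi.single 1 1) = y := by
    rw [Matrix.mulVec_single_one]
    rfl
  have hcol : M.mulVec (Pi.single 0 1) = c • Pi.single 0 1 + Pi.single 1 1 := by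
    have h1 : P.mulVec (M.mulVec (Pi.single 0 1)) = P.mulVec (c • Pi.single 0 1 + Pi.single 1 1) := by
      rw [Matrix.mulVec_mulVec, ← hAM, ← Matrix.mulVec_mulVec, hPx, Matrix.mulVec_add,
        Matrix.mulVec_smul, hPx, hPy, hy]
      abel
    have h2 := congrArg (P⁻¹).mulVec h1
    simpa only [Matrix.mulVec_mulVec, ← mul_assoc, Matrix.nonsing_inv_mul _ hunit,
      Matrix.one_mulVec, one_mul] using h2
  rw [Matrix.mulVec_single_one] at hcol
  have h0 : M 0 0 = c := by have := congrFun hcol 0; simpa using this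
  have h1 : M 1 0 = 1 := by have := congrFun hcol 1; simpa using this
  refine ⟨P, M 0 1, M 1 1, hdet, ?_⟩
  rw [hAM]
  conv_lhs => rw [eta2 M, h0, h1]

/-- as `form3`, with non-scalar Schur complement -/
theorem form3' (A : Matrix (Fin 3) (Fin 3) F) (hA : ∀ a : F, A ≠ Matrix.scalar (Fin 3) a)
    (hdet : A.det ≠ 0) (c : F) (hc : c ≠ 0) :
    ∃ (P : Matrix (Fin 3) (Fin 3) F) (p q r s t w : F), P.det ≠ 0 ∧
      A * P = P * !![c, p, q; 1, r, s; 0, t, w] ∧
      ∀ a : F, !![r - p / c, s - q / c; t, w] ≠ Matrix.scalar (Fin 2) a := by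
  obtain ⟨P, p, q, r, s, t, w, hP, hAP⟩ := form3 A hA c
  by_cases h : ∀ a : F, !![r - p / c, s - q / c; t, w] ≠ Matrix.scalar (Fin 2) a
  · exact ⟨P, p, q, r, s, t, w, hP, hAP, h⟩
  push Not at h
  obtain ⟨a, ha⟩ := h
  have h1 := congrFun (congrFun ha 0) 0
  have h2 := congrFun (congrFun ha 0) 1
  have h3 := congrFun (congrFun ha 1) 0
  have h4 := congrFun (congrFun ha 1) 1
  simp at h1 h2 h3 h4
  subst h3 h4
  have hw : w ≠ 0 := by
    intro h0
    subst h0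
    apply hdet
    have e1 := congrArg Matrix.det hAP
    rw [Matrix.det_mul, Matrix.det_mul] at e1
    have e2 : (!![c, p, q; 1, r, s; 0, 0, 0] : Matrix (Fin 3) (Fin 3) F).det = 0 := by
      simp [Matrix.det_fin_three]
    rw [e2, mul_zero] at e1
    exact (mul_eq_zero.mp e1).resolve_right hP
  refine ⟨P * !![1, 0, 1; 0, 1, 0; 0, 0, 1], p, q + c - w, r, s + 1, 0, w, ?_, ?_, ?_⟩
  · rw [Matrix.det_mul]
    refine mul_ne_zero hP ?_
    simp [Matrix.det_fin_three]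
  · rw [← mul_assoc, hAP, mul_assoc, mul_assoc]
    congr 1
    ext i j
    fin_cases i <;> fin_cases j <;> simp [Matrix.mul_apply, Fin.sum_univ_three] <;> ring
  · intro b hb
    have h5 := congrFun (congrFun hb 0) 1
    simp at h5
    have : w / c = 0 := by
      field_simp at h2 h5 ⊢
      linear_combination h5 - h2
    rcases div_eq_zero_iff.mp this with h6 | h6
    · exact hw h6
    · exact hc h6

/-- Sourour's factorization for `n = 3` -/
theorem sour3 (A : Matrix (Fin 3) (Fin 3) F) (hA : ∀ a : F, A ≠ Matrix.scalar (Fin 3) a)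
    (b1 b2 b3 c1 c2 c3 : F) (hb1 : b1 ≠ 0) (hb2 : b2 ≠ 0) (hb3 : b3 ≠ 0) (hc1 : c1 ≠ 0) (hc2 : c2 ≠ 0)
    (hc3 : c3 ≠ 0) (hdet : A.det = b1 * b2 * b3 * (c1 * c2 * c3)) :
    ∃ (P : Matrix (Fin 3) (Fin 3) F) (l21 l31 l32 u12 u13 u23 : F), P.det ≠ 0 ∧
      A * P = P * (!![b1, 0, 0; l21, b2, 0; l31, l32, b3] * !![c1, u12, u13; 0, c2, u23; 0, 0, c3]) := by
  have hdet0 : A.det ≠ 0 := by
    rw [hdet]
    exact mul_ne_zero (mul_ne_zero (mul_ne_zero hb1 hb2) hb3) (mul_ne_zero (mul_ne_zero hc1 hc2) hc3)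
  obtain ⟨P, p, q, r, s, t, w, hP, hAP, hS⟩ := form3' A hA hdet0 (b1 * c1) (mul_ne_zero hb1 hc1)
  obtain ⟨R, p', r', hR, hSR⟩ := form2 _ hS (b2 * c2)
  have hdetS : (b1 * c1) * (!![r - p / (b1 * c1), s - q / (b1 * c1); t, w] : Matrix (Fin 2) (Fin 2) F).det
      = A.det := by
    have e1 := congrArg Matrix.det hAP
    rw [Matrix.det_mul, Matrix.det_mul, mul_comm] at e1
    have e2 := mul_left_cancel₀ hP e1
    rw [e2, Matrix.det_fin_three, Matrix.det_fin_two]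
    simp
    field_simp
    ring
  have hdetS2 : (!![r - p / (b1 * c1), s - q / (b1 * c1); t, w] : Matrix (Fin 2) (Fin 2) F).det =
      b2 * c2 * r' - p' := by
    have e1 := congrArg Matrix.det hSR
    rw [Matrix.det_mul, Matrix.det_mul, mul_comm] at e1
    have e2 := mul_left_cancel₀ hR e1
    rw [e2, Matrix.det_fin_two_of]
    ring
  rw [hdetS2, hdet] at hdetS
  have hp' : p' = b2 * c2 * r' - b2 * b3 * c2 * c3 := by
    have : b1 * c1 * (b2 * c2 * r' - p' - b2 * b3 * c2 * c3) = 0 := by linear_combination hdetS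
    rcases mul_eq_zero.mp this with h | h
    · exact absurd h (mul_ne_zero hb1 hc1)
    · linear_combination -h
  set a := R 0 0 with ha
  set b := R 0 1 with hb
  set c := R 1 0 with hc
  set d := R 1 1 with hd
  have hRe : R = !![a, b; c, d] := eta2 R
  have hD : a * d - b * c ≠ 0 := by
    rw [Matrix.det_fin_two] at hR
    exact hR
  rw [hRe] at hSR
  have g1 := congrFun (congrFun hSR 0) 0
  have g2 := congrFun (congrFun hSR 0) 1
  have g3 := congrFun (congrFun hSR 1) 0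
  have g4 := congrFun (congrFun hSR 1) 1
  simp [Matrix.mul_apply, Fin.sum_univ_two] at g1 g2 g3 g4
  have eb1 : b1 * b1⁻¹ = 1 := mul_inv_cancel₀ hb1
  have ec1 : c1 * c1⁻¹ = 1 := mul_inv_cancel₀ hc1
  have eb2 : b2 * b2⁻¹ = 1 := mul_inv_cancel₀ hb2
  have ec2 : c2 * c2⁻¹ = 1 := mul_inv_cancel₀ hc2
  simp only [div_eq_mul_inv, mul_inv] at g1 g2
  have k3 : r' = p' * b2⁻¹ * c2⁻¹ + b3 * c3 := by
    rw [hp']
    field_simp
    ring
  obtain ⟨w1, hw1⟩ : ∃ w1, w1 = d / (a * d - b * c) := ⟨_, rfl⟩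
  obtain ⟨w2, hw2⟩ : ∃ w2, w2 = - c / (a * d - b * c) := ⟨_, rfl⟩
  have k1 : a * w1 + b * w2 = 1 := by rw [hw1, hw2]; field_simp; ring
  have k2 : c * w1 + d * w2 = 0 := by rw [hw1, hw2]; field_simp; ring
  refine ⟨P * !![1, 0, 0; 0, a, b; 0, c, d], w1 * c1⁻¹, w2 * c1⁻¹, c2⁻¹, (p * a + q * c) * b1⁻¹,
    (p * b + q * d) * b1⁻¹, p' * b2⁻¹, ?_, ?_⟩
  · rw [Matrix.det_mul]
    refine mul_ne_zero hP ?_
    simp [Matrix.det_fin_three]
    exact hD
  · rw [← mul_assoc, hAP, mul_assoc, mul_assoc]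
    congr 1
    ext i j
    fin_cases i <;> fin_cases j <;> simp [Matrix.mul_apply, Fin.sum_univ_three]
    · linear_combination (-(p * a + q * c)) * eb1
    · linear_combination (-(p * b + q * d)) * eb1
    · linear_combination -k1 - (a * w1 + b * w2) * ec1
    · linear_combination g1 - (p * a + q * c) * b1⁻¹ * c1⁻¹ * k1 - b * ec2
    · linear_combination g2 - (p * b + q * d) * b1⁻¹ * c1⁻¹ * k1 + b * k3 - a * p' * eb2
    · linear_combination -k2 - (c * w1 + d * w2) * ec1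
    · linear_combination g3 - (p * a + q * c) * b1⁻¹ * c1⁻¹ * k2 - d * ec2
    · linear_combination g4 - (p * b + q * d) * b1⁻¹ * c1⁻¹ * k2 + d * k3 - c * p' * eb2


/-- triangular matrices with distinct diagonal entries are diagonalised by unitriangular ones -/
theorem lower_diag (b1 b2 b3 l21 l31 l32 : F) (h12 : b1 ≠ b2) (h13 : b1 ≠ b3) (h23 : b2 ≠ b3) :
    ∃ t21 t31 t32 : F, !![b1, 0, 0; l21, b2, 0; l31, l32, b3] * !![1, 0, 0; t21, 1, 0; t31, t32, 1] =
      !![1, 0, 0; t21, 1, 0; t31, t32, 1] * (!![b1, 0, 0; 0, b2, 0; 0, 0, b3] : Matrix (Fin 3) (Fin 3) F) := by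
  have e12 : b1 - b2 ≠ 0 := sub_ne_zero.mpr h12
  have e13 : b1 - b3 ≠ 0 := sub_ne_zero.mpr h13
  have e23 : b2 - b3 ≠ 0 := sub_ne_zero.mpr h23
  refine ⟨l21 / (b1 - b2), (l31 + l32 * (l21 / (b1 - b2))) / (b1 - b3), l32 / (b2 - b3), ?_⟩
  ext i j
  fin_cases i <;> fin_cases j <;> simp [Matrix.mul_apply, Fin.sum_univ_three]
  · field_simp; ring
  · field_simp; ring
  · field_simp; ring

theorem upper_diag (b1 b2 b3 l21 l31 l32 : F) (h12 : b1 ≠ b2) (h13 : b1 ≠ b3) (h23 : b2 ≠ b3) :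
    ∃ t21 t31 t32 : F, !![b1, l21, l31; 0, b2, l32; 0, 0, b3] * !![1, t21, t31; 0, 1, t32; 0, 0, 1] =
      !![1, t21, t31; 0, 1, t32; 0, 0, 1] * (!![b1, 0, 0; 0, b2, 0; 0, 0, b3] : Matrix (Fin 3) (Fin 3) F) := by
  have e12 : b1 - b2 ≠ 0 := sub_ne_zero.mpr h12
  have e13 : b1 - b3 ≠ 0 := sub_ne_zero.mpr h13
  have e23 : b2 - b3 ≠ 0 := sub_ne_zero.mpr h23
  refine ⟨-l21 / (b1 - b2), -(l31 - l21 * (l32 / (b2 - b3))) / (b1 - b3), -l32 / (b2 - b3), ?_⟩
  ext i j
  fin_cases i <;> fin_cases j <;> simp [Matrix.mul_apply, Fin.sum_univ_three]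
  · field_simp; ring
  · field_simp; ring
  · field_simp; ring


/-- diagonal matrix of determinant one -/
def dg (b1 b2 b3 : F) (h : b1 * b2 * b3 = 1) : Matrix.SpecialLinearGroup (Fin 3) F :=
  ⟨!![b1, 0, 0; 0, b2, 0; 0, 0, b3], by simp [Matrix.det_fin_three, h]⟩

theorem conj_of_eigen {b1 b2 b3 : F} (h : b1 * b2 * b3 = 1) (X Q : Matrix (Fin 3) (Fin 3) F)
    (hQ : Q.det ≠ 0) (hX : X * Q = Q * !![b1, 0, 0; 0, b2, 0; 0, 0, b3]) :
    ∃ u : Matrix.SpecialLinearGroup (Fin 3) F,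
      ((u * dg b1 b2 b3 h * u⁻¹ : Matrix.SpecialLinearGroup (Fin 3) F) : Matrix (Fin 3) (Fin 3) F) = X := by
  refine ⟨⟨Q * !![(Q.det)⁻¹, 0, 0; 0, 1, 0; 0, 0, 1], ?_⟩, ?_⟩
  · rw [Matrix.det_mul]
    simp [Matrix.det_fin_three (!![(Q.det)⁻¹, 0, 0; 0, 1, 0; 0, 0, 1] : Matrix (Fin 3) (Fin 3) F), hQ]
  · set u : Matrix.SpecialLinearGroup (Fin 3) F := ⟨Q * !![(Q.det)⁻¹, 0, 0; 0, 1, 0; 0, 0, 1], _⟩ with hu
    have h1 : X * (u : Matrix (Fin 3) (Fin 3) F) = (u : Matrix (Fin 3) (Fin 3) F) *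
        (dg b1 b2 b3 h : Matrix (Fin 3) (Fin 3) F) := by
      show X * (Q * !![(Q.det)⁻¹, 0, 0; 0, 1, 0; 0, 0, 1]) = (Q * !![(Q.det)⁻¹, 0, 0; 0, 1, 0; 0, 0, 1]) *
        !![b1, 0, 0; 0, b2, 0; 0, 0, b3]
      rw [← mul_assoc, hX, mul_assoc, mul_assoc]
      congr 1
      ext i j
      fin_cases i <;> fin_cases j <;> simp [Matrix.mul_apply, Fin.sum_univ_three, mul_comm]
    rw [Matrix.SpecialLinearGroup.coe_mul, Matrix.SpecialLinearGroup.coe_mul, ← h1, mul_assoc,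
      ← Matrix.SpecialLinearGroup.coe_mul, mul_inv_cancel, Matrix.SpecialLinearGroup.coe_one, mul_one]

/-- every non-scalar element of `SL₃` is a product of two conjugates of a diagonal matrix with distinct
eigenvalues -/
theorem sl3_product {b1 b2 b3 : F} (h : b1 * b2 * b3 = 1) (h12 : b1 ≠ b2) (h13 : b1 ≠ b3) (h23 : b2 ≠ b3)
    (A : Matrix.SpecialLinearGroup (Fin 3) F)
    (hA : ∀ a : F, (A : Matrix (Fin 3) (Fin 3) F) ≠ Matrix.scalar (Fin 3) a) :
    ∃ u v : Matrix.SpecialLinearGroup (Fin 3) F,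
      A = (u * dg b1 b2 b3 h * u⁻¹) * (v * dg b1 b2 b3 h * v⁻¹) := by
  have hb1 : b1 ≠ 0 := by rintro rfl; simp at h
  have hb2 : b2 ≠ 0 := by rintro rfl; simp at h
  have hb3 : b3 ≠ 0 := by rintro rfl; simp at h
  obtain ⟨P, l21, l31, l32, u12, u13, u23, hP, hAP⟩ := sour3 (A : Matrix (Fin 3) (Fin 3) F) hA
    b1 b2 b3 b1 b2 b3 hb1 hb2 hb3 hb1 hb2 hb3 (by rw [Matrix.SpecialLinearGroup.det_coe, h]; simp)
  obtain ⟨t21, t31, t32, hT⟩ := lower_diag b1 b2 b3 l21 l31 l32 h12 h13 h23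
  obtain ⟨s12, s13, s23, hS⟩ := upper_diag b1 b2 b3 u12 u13 u23 h12 h13 h23
  have hunit : IsUnit P.det := isUnit_iff_ne_zero.mpr hP
  obtain ⟨u, hu⟩ := conj_of_eigen h (P * !![b1, 0, 0; l21, b2, 0; l31, l32, b3] * P⁻¹)
    (P * !![1, 0, 0; t21, 1, 0; t31, t32, 1]) (by
      rw [Matrix.det_mul]
      refine mul_ne_zero hP ?_
      simp [Matrix.det_fin_three]) (by
      rw [mul_assoc (P * _), ← mul_assoc P⁻¹, Matrix.nonsing_inv_mul _ hunit, one_mul, mul_assoc, hT,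
        mul_assoc])
  obtain ⟨v, hv⟩ := conj_of_eigen h (P * !![b1, u12, u13; 0, b2, u23; 0, 0, b3] * P⁻¹)
    (P * !![1, s12, s13; 0, 1, s23; 0, 0, 1]) (by
      rw [Matrix.det_mul]
      refine mul_ne_zero hP ?_
      simp [Matrix.det_fin_three]) (by
      rw [mul_assoc (P * _), ← mul_assoc P⁻¹, Matrix.nonsing_inv_mul _ hunit, one_mul, mul_assoc, hS,
        mul_assoc])
  refine ⟨u, v, ?_⟩
  apply Subtype.ext
  rw [Matrix.SpecialLinearGroup.coe_mul, hu, hv]
  calc (A : Matrix (Fin 3) (Fin 3) F) = (A : Matrix (Fin 3) (Fin 3) F) * P * P⁻¹ := by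
        rw [mul_assoc, Matrix.mul_nonsing_inv _ hunit, mul_one]
    _ = P * !![b1, 0, 0; l21, b2, 0; l31, l32, b3] * (P⁻¹ * P) * !![b1, u12, u13; 0, b2, u23; 0, 0, b3] * P⁻¹ := by
        rw [hAP, Matrix.nonsing_inv_mul _ hunit, mul_one]
        simp only [mul_assoc]
    _ = _ := by simp only [mul_assoc]

end Cfsg.Agent.H15.Sour
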