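import Cfsg.Agent.H5_SL2Tor

set_option autoImplicit false
set_option maxHeartbeats 1000000

/-! The group `V : (2 × PSL₂(q))`, `V = W ⊗ W^(3)`, `q = 3^α`. -/

namespace Cfsg.Agent.H15.TW

open Matrix Cfsg.Agent.H5.SL2 Cfsg.Agent.H5

variable {F : Type*} [Field F] [CharP F 3]

instance : Fact (Nat.Prime 3) := ⟨Nat.prime_three⟩

abbrev VV (F : Type*) [Field F] := Matrix (Fin 2) (Fin 2) F

noncomputable def fr (F : Type*) [Field F] [CharP F 3] : S F →* S F := Matrix.SpecialLinearGroup.map (frobenius F 3)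

theorem three_zero : (3 : F) = 0 := by exact_mod_cast CharP.cast_eq_zero F 3

theorem two_ne : (2 : F) ≠ 0 := by
  intro h
  have h3 := three_zero (F := F)
  have : (1 : F) = 0 := by linear_combination h3 - h
  exact one_ne_zero this

noncomputable def L (F : Type*) [Field F] [CharP F 3] : ℤˣ × S F →* AddMonoid.End (VV F) where
  toFun a :=
    { toFun := fun X => ((a.1 : ℤˣ) : ℤ) • (a.2.1 * X * (fr F a.2).1ᵀ)
      map_zero' := by simp
      map_add' := fun X Y => by rw [mul_add, add_mul, smul_add] }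
  map_one' := by
    ext1 X
    show ((1 : ℤˣ) : ℤ) • ((1 : S F).1 * X * (fr F 1).1ᵀ) = X
    rw [map_one]
    simp
  map_mul' a b := by
    ext1 X
    show (((a.1 * b.1 : ℤˣ)) : ℤ) • ((a.2 * b.2 : S F).1 * X * (fr F (a.2 * b.2)).1ᵀ) =
      ((a.1 : ℤˣ) : ℤ) • (a.2.1 * (((b.1 : ℤˣ) : ℤ) • (b.2.1 * X * (fr F b.2).1ᵀ)) * (fr F a.2).1ᵀ)
    rw [map_mul]
    have e1 : (a.2 * b.2 : S F).1 = a.2.1 * b.2.1 := rfl
    have e2 : (fr F a.2 * fr F b.2 : S F).1 = (fr F a.2).1 * (fr F b.2).1 := rfl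
    rw [e1, e2, Matrix.transpose_mul, Units.val_mul, mul_smul, Matrix.mul_smul, Matrix.smul_mul]
    simp only [mul_assoc]

theorem L_apply (a : ℤˣ × S F) (X : VV F) : L F a X = ((a.1 : ℤˣ) : ℤ) • (a.2.1 * X * (fr F a.2).1ᵀ) := rfl

theorem L_inv (a : ℤˣ × S F) (X : VV F) : L F a (L F a⁻¹ X) = X := by
  have h : (L F (a * a⁻¹)) X = X := by rw [mul_inv_cancel, map_one]; rfl
  rw [map_mul] at h
  exact h

theorem L_inv' (a : ℤˣ × S F) (X : VV F) : L F a⁻¹ (L F a X) = X := by
  have h : (L F (a⁻¹ * a)) X = X := by rw [inv_mul_cancel, map_one]; rfl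
  rw [map_mul] at h
  exact h

theorem L_negone : L F (1, -1) = 1 := by
  ext1 X
  rw [L_apply]
  have e : (fr F (-1)).1 = -1 := by
    ext i j
    show frobenius F 3 ((-1 : S F).1 i j) = _
    fin_cases i <;> fin_cases j <;> simp [frobenius_def]
    all_goals ring
  rw [e]
  simp

/-- affine permutations -/
noncomputable def mk (a : ℤˣ × S F) (v : VV F) : Equiv.Perm (VV F) where
  toFun X := L F a X + v
  invFun X := L F a⁻¹ (X - v)
  left_inv X := by
    show L F a⁻¹ (L F a X + v - v) = X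
    rw [add_sub_cancel_right, L_inv']
  right_inv X := by
    show L F a (L F a⁻¹ (X - v)) + v = X
    rw [L_inv, sub_add_cancel]

theorem mk_apply (a : ℤˣ × S F) (v X : VV F) : mk a v X = L F a X + v := rfl

theorem mk_mul (a b : ℤˣ × S F) (v w : VV F) : mk a v * mk b w = mk (a * b) (L F a w + v) := by
  ext1 X
  rw [Equiv.Perm.mul_apply, mk_apply, mk_apply, mk_apply, map_mul]
  show L F a (L F b X + w) + v = L F a (L F b X) + (L F a w + v)
  rw [map_add, add_assoc]

theorem mk_one : mk (1 : ℤˣ × S F) 0 = 1 := by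
  ext1 X
  rw [mk_apply, map_one, add_zero]
  rfl

theorem mk_inv (a : ℤˣ × S F) (v : VV F) : (mk a v)⁻¹ = mk a⁻¹ (-(L F a⁻¹ v)) := by
  rw [inv_eq_iff_mul_eq_one, mk_mul, mul_inv_cancel, map_neg, L_inv, neg_add_cancel, mk_one]

noncomputable def HH (F : Type*) [Field F] [CharP F 3] : Subgroup (Equiv.Perm (VV F)) where
  carrier := {f | ∃ a v, f = mk a v}
  one_mem' := ⟨1, 0, mk_one.symm⟩
  mul_mem' := by
    rintro _ _ ⟨a, v, rfl⟩ ⟨b, w, rfl⟩
    exact ⟨_, _, mk_mul a b v w⟩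
  inv_mem' := by
    rintro _ ⟨a, v, rfl⟩
    exact ⟨_, _, mk_inv a v⟩

theorem mk_pow (a : ℤˣ × S F) (v : VV F) (k : ℕ) : (mk a v) ^ k = mk (a ^ k) (∑ i ∈ Finset.range k, L F (a ^ i) v) := by
  induction k with
  | zero => simp [mk_one]
  | succ k ih =>
    rw [pow_succ', ih, mk_mul, ← pow_succ', map_sum, Finset.sum_range_succ']
    congr 1
    rw [pow_zero, map_one]
    congr 1
    refine Finset.sum_congr rfl fun i _ => ?_
    rw [pow_succ', map_mul]
    rfl

/-- equality with the identity -/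
theorem mk_eq_one {a : ℤˣ × S F} {v : VV F} : mk a v = 1 ↔ L F a = 1 ∧ v = 0 := by
  constructor
  · intro h
    have h0 : mk a v 0 = 0 := by rw [h]; rfl
    rw [mk_apply, map_zero, zero_add] at h0
    refine ⟨?_, h0⟩
    ext1 X
    have h1 : mk a v X = X := by rw [h]; rfl
    rw [mk_apply, h0, add_zero] at h1
    exact h1
  · rintro ⟨h, rfl⟩
    ext1 X
    rw [mk_apply, h, add_zero]
    rfl

theorem mk_pow_one {a : ℤˣ × S F} {v : VV F} {k : ℕ} (h1 : L F (a ^ k) = 1) (h2 : ∑ i ∈ Finset.range k, L F (a ^ i) v = 0) : (mk a v) ^ k = 1 := by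
  rw [mk_pow]
  exact mk_eq_one.2 ⟨h1, h2⟩

/-- fixed-point-free elements -/
theorem pow_of_fpf {a : ℤˣ × S F} {v : VV F} {k : ℕ} (h1 : L F (a ^ k) = 1) (hf : ∀ X, L F a X = X → X = 0) : (mk a v) ^ k = 1 := by
  refine mk_pow_one h1 (hf _ ?_)
  have h2 : L F a (∑ i ∈ Finset.range k, L F (a ^ i) v) + v = ∑ i ∈ Finset.range (k + 1), L F (a ^ i) v := by
    rw [map_sum, Finset.sum_range_succ', pow_zero, map_one]
    congr 1
    refine Finset.sum_congr rfl fun i _ => ?_
    rw [pow_succ', map_mul]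
    rfl
  rw [Finset.sum_range_succ, h1] at h2
  exact add_right_cancel h2

theorem three_smul_zero (X : VV F) : (3 : ℕ) • X = 0 := by
  ext i j
  rw [Matrix.smul_apply, nsmul_eq_mul]
  have h3 := three_zero (F := F)
  push_cast
  rw [h3, zero_mul, Matrix.zero_apply]

theorem trans_cube (w : VV F) {b : ℤˣ × S F} (hb : L F b = 1) : (mk b w) ^ 3 = 1 := by
  refine mk_pow_one (by rw [map_pow, hb, one_pow]) ?_
  have : ∀ i ∈ Finset.range 3, L F (b ^ i) w = w := by
    intro i _
    rw [map_pow, hb, one_pow]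
    rfl
  rw [Finset.sum_congr rfl this, Finset.sum_const, Finset.card_range]
  exact three_smul_zero w

theorem pow_mul_three {a : ℤˣ × S F} {v : VV F} {k : ℕ} (h1 : L F (a ^ k) = 1) : (mk a v) ^ (k * 3) = 1 := by
  rw [pow_mul, mk_pow, trans_cube _ h1]

theorem sq_one {x : S F} (h : x ^ 2 = 1) : x = 1 ∨ x = -1 := by
  have hc := SL2Tor.cayley x
  have h1 : x.1 * x.1 = 1 := by
    rw [pow_two] at h
    exact congrArg Subtype.val h
  rw [h1] at hc
  have h2 : x.1.trace • x.1 = (2 : F) • (1 : Matrix (Fin 2) (Fin 2) F) := by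
    rw [two_smul]
    have := hc
    rw [sub_add_eq_add_sub, sub_eq_zero] at this
    exact this.symm
  have h3 := congrFun (congrFun h2 0) 0
  have h4 := congrFun (congrFun h2 0) 1
  have h5 := congrFun (congrFun h2 1) 0
  have h6 := congrFun (congrFun h2 1) 1
  rw [Matrix.trace_fin_two] at h3 h4 h5 h6
  simp only [Matrix.smul_apply, smul_eq_mul, Matrix.one_apply_eq, mul_one] at h3 h4 h5 h6
  rw [Matrix.one_apply_ne (by decide), mul_zero] at h4 h5
  have ht : x.1 0 0 + x.1 1 1 ≠ 0 := by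
    intro h0
    rw [h0, zero_mul] at h3
    exact two_ne h3.symm
  have e01 : x.1 0 1 = 0 := (mul_eq_zero.1 h4).resolve_left ht
  have e10 : x.1 1 0 = 0 := (mul_eq_zero.1 h5).resolve_left ht
  have e00 : x.1 0 0 = x.1 1 1 := mul_left_cancel₀ ht (h3.trans h6.symm)
  have e2 : x.1 0 0 * x.1 0 0 = 1 := by
    have := det_eq x
    rw [e01, e10, ← e00] at this
    linear_combination this
  rcases mul_self_eq_one_iff.1 e2 with h | h
  · left
    apply ext2
    · rw [h]; rfl
    · rw [e01]; rfl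
    · rw [e10]; rfl
    · rw [← e00, h]; rfl
  · right
    apply ext2
    · rw [h]; simp
    · rw [e01]; simp
    · rw [e10]; simp
    · rw [← e00, h]; simp

theorem L_of_sq {x : S F} (h : x ^ 2 = 1) : L F (1, x) = 1 := by
  rcases sq_one h with rfl | rfl
  · exact map_one (L F)
  · exact L_negone

theorem tr_fr (g : S F) : (fr F g).1ᵀ.trace = g.1.trace ^ 3 := by
  rw [Matrix.trace_transpose, Matrix.trace_fin_two, Matrix.trace_fin_two]
  show frobenius F 3 (g.1 0 0) + frobenius F 3 (g.1 1 1) = _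
  rw [← map_add, frobenius_def]

/-- fixed vectors -/
theorem fixed {ε : ℤˣ} {g : S F} {X : VV F} (hX : X ≠ 0) (h : L F (ε, g) X = X) : g.1.trace = 0 ∨ g.1.trace ^ 2 = (((ε : ℤˣ) : ℤ) : F) := by
  rw [L_apply] at h
  simp only at h
  have e0 : ((ε : ℤˣ) : ℤ) • (g.1 * X * (fr F g).1ᵀ) = (((ε : ℤˣ) : ℤ) : F) • (g.1 * X * (fr F g).1ᵀ) := by
    rw [← Int.cast_smul_eq_zsmul F]
  rw [e0] at h
  obtain ⟨c, hc⟩ : ∃ c : F, c = (((ε : ℤˣ) : ℤ) : F) := ⟨_, rfl⟩
  have hcc : c * c = 1 := by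
    rw [hc]
    rcases Int.units_eq_one_or ε with rfl | rfl <;> simp
  rw [← hc] at h ⊢
  obtain ⟨t, ht⟩ : ∃ t, t = g.1.trace := ⟨_, rfl⟩
  rw [← ht]
  have h1 : g.1 * g.1 = t • g.1 - 1 := by
    have := SL2Tor.cayley g
    rw [← ht] at this
    rw [sub_add, sub_eq_zero] at this
    exact this
  obtain ⟨H, hH⟩ : ∃ H : Matrix (Fin 2) (Fin 2) F, H = (fr F g).1ᵀ := ⟨_, rfl⟩
  have h2 : H * H = (t ^ 3) • H - 1 := by
    have h3 := SL2Tor.cayley (fr F g)
    have h4 := congrArg Matrix.transpose h3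
    rw [Matrix.transpose_add, Matrix.transpose_sub, Matrix.transpose_mul, Matrix.transpose_smul, ← hH, Matrix.transpose_one, Matrix.transpose_zero,
      ← Matrix.trace_transpose, tr_fr, ← ht] at h4
    rw [sub_add, sub_eq_zero] at h4
    exact h4
  rw [← hH] at h
  -- g X H = c X
  have h5 : g.1 * X * H = c • X := by
    have h3 := congrArg (fun Y => c • Y) h
    simp only [smul_smul, hcc, one_smul] at h3
    exact h3
  have hginv : (t • (1 : Matrix (Fin 2) (Fin 2) F) - g.1) * g.1 = 1 := by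
    rw [sub_mul, Matrix.smul_mul, one_mul, h1, sub_sub_cancel]
  obtain ⟨Y, hY⟩ : ∃ Y, Y = g.1 * X := ⟨_, rfl⟩
  have h6 : X * H = (c * t) • X - c • Y := by
    have h3 : (t • (1 : Matrix (Fin 2) (Fin 2) F) - g.1) * (g.1 * X * H) = X * H := by
      rw [mul_assoc g.1 X H, ← mul_assoc, hginv, one_mul]
    rw [← h3, h5, Matrix.mul_smul, sub_mul, Matrix.smul_mul, one_mul, ← hY, smul_sub, smul_smul]
  have h7 : (g.1 * g.1) * X * (H * H) = X := by
    calc (g.1 * g.1) * X * (H * H) = g.1 * (g.1 * X * H) * H := by simp only [mul_assoc]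
      _ = c • (g.1 * X * H) := by rw [h5, Matrix.mul_smul, Matrix.smul_mul, h5]
      _ = X := by rw [h5, smul_smul, hcc, one_smul]
  have h8 : (g.1 * g.1) * X * (H * H) = t ^ 4 • (c • X) - t • Y - t ^ 3 • ((c * t) • X - c • Y) + X := by
    rw [h1, h2, ← h6, ← h5, hY]
    simp only [sub_mul, mul_sub, Matrix.smul_mul, Matrix.mul_smul, one_mul, mul_one, smul_sub, smul_smul]
    rw [show t ^ 3 * t = t ^ 4 by ring]
    abel
  have h9 : (c * t ^ 3 - t) • Y = 0 := by
    rw [h7] at h8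
    ext i j
    have h10 := congrFun (congrFun h8 i) j
    simp only [Matrix.add_apply, Matrix.sub_apply, Matrix.smul_apply, smul_eq_mul] at h10
    rw [Matrix.smul_apply, smul_eq_mul, Matrix.zero_apply]
    linear_combination -h10
  have hY0 : Y ≠ 0 := by
    intro h0
    apply hX
    have : (t • (1 : Matrix (Fin 2) (Fin 2) F) - g.1) * (g.1 * X) = X := by rw [← mul_assoc, hginv, one_mul]
    rw [← this, ← hY, h0, mul_zero]
  have h10 : t * (c * t ^ 2 - 1) = 0 := by
    have := (smul_eq_zero.1 h9).resolve_right hY0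
    linear_combination this
  rcases mul_eq_zero.1 h10 with h11 | h11
  · exact Or.inl h11
  · right
    linear_combination c * h11 - t ^ 2 * hcc

/-- the main order bound -/
theorem order_dvd [Fintype F] {q : ℕ} (hF : Fintype.card F = q) (hq : q % 8 = 3) (a : ℤˣ × S F) (v : VV F) :
    (mk a v) ^ 6 = 1 ∨ (mk a v) ^ 9 = 1 ∨ (mk a v) ^ (q - 1) = 1 ∨ (mk a v) ^ ((q + 1) / 2) = 1 := by
  obtain ⟨ε, g⟩ := a
  have hns : ¬ IsSquare (-1 : F) := by
    rw [FiniteField.isSquare_neg_one_iff, hF]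
    omega
  have hε : ∀ k, Even k → ε ^ k = 1 := by
    intro k hk
    rcases Int.units_eq_one_or ε with rfl | rfl
    · exact one_pow k
    · exact hk.neg_one_pow
  by_cases ht : g.1.trace ^ 2 = 1
  · -- unipotent up to sign
    have h6 : g ^ 6 = 1 := by
      have hl : g.1.trace ^ 2 - g.1.trace * g.1.trace + 1 = 1 := by ring
      have := (SL2Tor.unip_case 3 (g := g) (lam := -g.1.trace) (by
        have h3 := three_zero (F := F)
        linear_combination 2 * ht + h3) (by rw [neg_sq, ht])).1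
      exact this
    have h3 : L F (1, g ^ 3) = 1 := L_of_sq (by rw [← pow_mul]; exact h6)
    rcases Int.units_eq_one_or ε with rfl | rfl
    · right; left
      have : L F (((1 : ℤˣ), g) ^ 3) = 1 := by
        rw [Prod.pow_mk, one_pow]; exact h3
      exact pow_mul_three (k := 3) this
    · left
      apply pow_of_fpf
      · rw [Prod.pow_mk, h6]
        have : ((-1 : ℤˣ)) ^ 6 = 1 := by decide
        rw [this]
        exact map_one (L F)
      · intro X hX
        have hX3 : L F (((-1 : ℤˣ), g) ^ 3) X = X := by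
          rw [map_pow]
          show L F (-1, g) (L F (-1, g) (L F (-1, g) X)) = X
          rw [hX, hX, hX]
        have e : (((-1 : ℤˣ), g) ^ 3 : ℤˣ × S F) = (-1, 1) * (1, g ^ 3) := by
          rw [Prod.pow_mk, Prod.mk_mul_mk, mul_one, one_mul]
          congr 1
        rw [e, map_mul, h3, mul_one, L_apply] at hX3
        simp only [map_one] at hX3
        have h4 : -X = X := by
          simpa using hX3
        ext i j
        have h5 := congrFun (congrFun h4 i) j
        rw [Matrix.neg_apply] at h5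
        rw [Matrix.zero_apply]
        have : (2 : F) * X i j = 0 := by linear_combination -h5
        exact (mul_eq_zero.1 this).resolve_left two_ne
  · -- semisimple
    by_cases hf : ∀ X, L F (ε, g) X = X → X = 0
    · by_cases hl : ∃ lam : F, lam ^ 2 - g.1.trace * lam + 1 = 0
      · obtain ⟨lam, hl⟩ := hl
        right; right; left
        apply pow_of_fpf _ hf
        have hne : lam ^ 2 ≠ 1 := by
          intro h1
          apply ht
          have h4 : g.1.trace * lam = 2 := by linear_combination h1 - hl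
          have h5 : g.1.trace ^ 2 = 4 := by
            calc g.1.trace ^ 2 = (g.1.trace * lam) ^ 2 := by rw [mul_pow, h1, mul_one]
              _ = 4 := by rw [h4]; norm_num
          rw [h5]
          have h3 := three_zero (F := F)
          linear_combination h3
        have h2 := SL2Tor.split_case hl hne
        rw [hF] at h2
        rw [Prod.pow_mk, h2, hε _ (by rw [Nat.even_iff]; omega)]
        exact map_one (L F)
      · push Not at hl
        right; right; right
        apply pow_of_fpf _ hf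
        have h2 := SL2Tor.nonsplit_case hl
        rw [hF] at h2
        rw [Prod.pow_mk, hε _ (by rw [Nat.even_iff]; omega)]
        apply L_of_sq
        rw [← pow_mul, show (q + 1) / 2 * 2 = q + 1 by omega]
        exact h2
    · push Not at hf
      obtain ⟨X, hX, hX0⟩ := hf
      left
      have h2 : g.1.trace = 0 := by
        rcases fixed hX0 hX with h | h
        · exact h
        · exfalso
          rcases Int.units_eq_one_or ε with rfl | rfl
          · exact ht (by rw [h]; simp)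
          · apply hns
            exact ⟨g.1.trace, by rw [← pow_two, h]; simp⟩
      have h3 : g ^ 2 = -1 := by
        have hc := SL2Tor.cayley g
        rw [h2, zero_smul, sub_zero] at hc
        apply Subtype.ext
        rw [pow_two]
        show g.1 * g.1 = _
        rw [eq_neg_of_add_eq_zero_left hc]
        simp
      have h4 : L F ((ε, g) ^ 2) = 1 := by
        rw [Prod.pow_mk, hε 2 (by decide), h3]
        exact L_negone
      exact pow_mul_three (k := 2) h4

/-- scalars in the image of `SL₂` -/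
theorem L_scalar {ε : ℤˣ} {g : S F} (h : L F (ε, g) = 1) : g ^ 2 = 1 ∧ ε = 1 := by
  obtain ⟨c, hc⟩ : ∃ c : F, c = (((ε : ℤˣ) : ℤ) : F) := ⟨_, rfl⟩
  have hcc : c * c = 1 := by
    rw [hc]
    rcases Int.units_eq_one_or ε with rfl | rfl <;> simp
  have key : ∀ X : VV F, c • (g.1 * X * (fr F g).1ᵀ) = X := by
    intro X
    have h1 : L F (ε, g) X = X := by rw [h]; rfl
    rw [L_apply] at h1
    rw [hc, Int.cast_smul_eq_zsmul F]
    exact h1
  obtain ⟨H, hH⟩ : ∃ H : Matrix (Fin 2) (Fin 2) F, H = (fr F g).1ᵀ := ⟨_, rfl⟩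
  rw [← hH] at key
  have k1 := key 1
  rw [mul_one] at k1
  -- `H` is `c g⁻¹`
  have hginv : (g⁻¹).1 * g.1 = 1 := by
    have : (g⁻¹ * g : S F).1 = (1 : S F).1 := by rw [inv_mul_cancel]
    exact this
  have hginv' : g.1 * (g⁻¹).1 = 1 := by
    have : (g * g⁻¹ : S F).1 = (1 : S F).1 := by rw [mul_inv_cancel]
    exact this
  have hcH : c • H = (g⁻¹).1 := by
    have h3 := congrArg (fun Y => (g⁻¹).1 * Y) k1
    simp only [Matrix.mul_smul, mul_one] at h3
    rwa [← mul_assoc, hginv, one_mul] at h3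
  have hcomm : ∀ X : VV F, g.1 * X = X * g.1 := by
    intro X
    have h3 := key X
    rw [← Matrix.mul_smul, hcH] at h3
    have h4 := congrArg (fun Y => Y * g.1) h3
    simp only [mul_assoc] at h4
    rw [hginv, mul_one] at h4
    exact h4
  have c1 := congrFun (congrFun (hcomm !![0, 1; 0, 0]) 0) 0
  have c2 := congrFun (congrFun (hcomm !![0, 1; 0, 0]) 0) 1
  have c3 := congrFun (congrFun (hcomm !![0, 0; 1, 0]) 0) 0
  simp [Matrix.mul_apply] at c1 c2 c3
  have hdet := det_eq g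
  have hg2 : g ^ 2 = 1 := by
    rw [pow_two]
    apply ext2
    · rw [mul00, c3]
      show g.1 0 0 * g.1 0 0 + 0 * _ = 1
      rw [← c2, c3] at hdet
      linear_combination hdet
    · rw [mul01, c3]
      show g.1 0 0 * 0 + 0 * _ = 0
      ring
    · rw [mul10, ← c1]
      show 0 * _ + _ * 0 = 0
      ring
    · rw [mul11, c3, ← c2]
      show _ * 0 + g.1 0 0 * g.1 0 0 = 1
      rw [← c2, c3] at hdet
      linear_combination hdet
  refine ⟨hg2, ?_⟩
  have h4 : L F (ε, 1) = 1 := by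
    have e : ((ε, g) : ℤˣ × S F) = (ε, 1) * (1, g) := by simp
    rw [e, map_mul, L_of_sq hg2, mul_one] at h
    exact h
  rcases Int.units_eq_one_or ε with h5 | h5
  · exact h5
  · exfalso
    have h6 : L F (ε, 1) 1 = 1 := by rw [h4]; rfl
    rw [L_apply, h5] at h6
    simp only [map_one] at h6
    have h7 := congrFun (congrFun h6 0) 0
    simp at h7
    apply two_ne (F := F)
    linear_combination -h7

variable [Fintype F] {q : ℕ}

theorem exists_sub (hF : Fintype.card F = q) (hq : q % 8 = 3) : ∃ a v, orderOf (mk (F := F) a v) = q - 1 := by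
  obtain ⟨g, hg⟩ := SL2Tor.exists_order_sub (F := F)
  rw [hF] at hg
  refine ⟨(-1, g), 0, ?_⟩
  have hz : ∀ k, (mk ((-1 : ℤˣ), g) (0 : VV F)) ^ k = 1 ↔ L F (((-1 : ℤˣ), g) ^ k) = 1 := by
    intro k
    rw [mk_pow, mk_eq_one]
    simp
  apply Nat.dvd_antisymm
  · rw [orderOf_dvd_iff_pow_eq_one, hz, Prod.pow_mk, ← hg, pow_orderOf_eq_one, hg]
    have : Even (q - 1) := by rw [Nat.even_iff]; omega
    rw [this.neg_one_pow]
    exact map_one (L F)
  · have h1 := (hz _).1 (pow_orderOf_eq_one (mk ((-1 : ℤˣ), g) (0 : VV F)))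
    rw [Prod.pow_mk] at h1
    obtain ⟨h2, h3⟩ := L_scalar h1
    rw [← pow_mul] at h2
    have h4 := orderOf_dvd_of_pow_eq_one h2
    rw [hg] at h4
    obtain ⟨m, hm⟩ : ∃ m, m = orderOf (mk ((-1 : ℤˣ), g) (0 : VV F)) := ⟨_, rfl⟩
    rw [← hm] at h3 h4 ⊢
    have h5 : Even m := by
      by_contra hodd
      rw [Nat.not_even_iff_odd] at hodd
      rw [hodd.neg_one_pow] at h3
      exact absurd h3 (by decide)
    obtain ⟨s, rfl⟩ := h5
    obtain ⟨r, hr⟩ : ∃ r, q = 8 * r + 3 := ⟨q / 8, by omega⟩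
    subst hr
    -- `2 (4 r + 1) ∣ 4 s`
    have h6 : 2 * (4 * r + 1) ∣ 2 * (2 * s) := by
      have e1 : 8 * r + 3 - 1 = 2 * (4 * r + 1) := by omega
      have e2 : (s + s) * 2 = 2 * (2 * s) := by ring
      rwa [e1, e2] at h4
    have h7 : 4 * r + 1 ∣ 2 * s := Nat.dvd_of_mul_dvd_mul_left (by norm_num) h6
    have h8 : Nat.Coprime (4 * r + 1) 2 := by
      rw [Nat.coprime_two_right]
      exact ⟨2 * r, by ring⟩
    have h9 : 4 * r + 1 ∣ s := h8.dvd_of_dvd_mul_left h7
    have e1 : 8 * r + 3 - 1 = 2 * (4 * r + 1) := by omega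
    rw [e1, ← two_mul]
    exact Nat.mul_dvd_mul_left 2 h9

theorem exists_add (hF : Fintype.card F = q) (hq : q % 8 = 3) : ∃ a v, orderOf (mk (F := F) a v) = (q + 1) / 2 := by
  obtain ⟨g, hg⟩ := SL2Tor.exists_order_add (F := F)
  rw [hF] at hg
  refine ⟨(1, g), 0, ?_⟩
  have hz : ∀ k, (mk ((1 : ℤˣ), g) (0 : VV F)) ^ k = 1 ↔ L F (((1 : ℤˣ), g) ^ k) = 1 := by
    intro k
    rw [mk_pow, mk_eq_one]
    simp
  apply Nat.dvd_antisymm
  · rw [orderOf_dvd_iff_pow_eq_one, hz, Prod.pow_mk, one_pow]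
    apply L_of_sq
    rw [← pow_mul, show (q + 1) / 2 * 2 = q + 1 by omega, ← hg, pow_orderOf_eq_one]
  · have h1 := (hz _).1 (pow_orderOf_eq_one (mk ((1 : ℤˣ), g) (0 : VV F)))
    rw [Prod.pow_mk] at h1
    obtain ⟨h2, -⟩ := L_scalar h1
    rw [← pow_mul] at h2
    have h4 := orderOf_dvd_of_pow_eq_one h2
    rw [hg] at h4
    refine Nat.dvd_of_mul_dvd_mul_right (k := 2) (by norm_num) ?_
    rwa [show (q + 1) / 2 * 2 = q + 1 by omega]

omit [Fintype F] in
theorem u_pow_three : (u (1 : F)) ^ 3 = 1 := by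
  have h3 := three_zero (F := F)
  rw [pow_succ, pow_two]
  apply ext2
  · simp [mul00, mul01, mul10, mul11]
  · simp only [mul00, mul01, mul10, mul11, u00, u01, u10, u11]
    show _ = (0 : F)
    linear_combination h3
  · simp [mul00, mul01, mul10, mul11]
  · simp [mul00, mul01, mul10, mul11]

omit [Fintype F] in
theorem exists_six : ∃ a v, orderOf (mk (F := F) a v) = 6 := by
  refine ⟨(-1, u 1), 0, ?_⟩
  have hz : ∀ k, (mk ((-1 : ℤˣ), u (1 : F)) (0 : VV F)) ^ k = 1 ↔ L F (((-1 : ℤˣ), u (1 : F)) ^ k) = 1 := by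
    intro k
    rw [mk_pow, mk_eq_one]
    simp
  have h6 : (mk ((-1 : ℤˣ), u (1 : F)) (0 : VV F)) ^ 6 = 1 := by
    rw [hz, Prod.pow_mk, show (6 : ℕ) = 3 * 2 by norm_num, pow_mul (u (1 : F)), u_pow_three, one_pow]
    have : (-1 : ℤˣ) ^ (3 * 2) = 1 := by decide
    rw [this]
    exact map_one (L F)
  have h2 : (mk ((-1 : ℤˣ), u (1 : F)) (0 : VV F)) ^ 2 ≠ 1 := by
    intro h
    rw [hz, Prod.pow_mk] at h
    obtain ⟨h3, -⟩ := L_scalar h
    rw [← pow_mul, show 2 * 2 = 3 + 1 by norm_num, pow_succ, u_pow_three, one_mul] at h3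
    have h4 := congrArg (fun t : S F => t.1 0 1) h3
    simp at h4
  have h3 : (mk ((-1 : ℤˣ), u (1 : F)) (0 : VV F)) ^ 3 ≠ 1 := by
    intro h
    rw [hz, Prod.pow_mk] at h
    obtain ⟨-, h4⟩ := L_scalar h
    exact absurd h4 (by decide)
  have hd := orderOf_dvd_of_pow_eq_one h6
  have h2' : ¬ orderOf (mk ((-1 : ℤˣ), u (1 : F)) (0 : VV F)) ∣ 2 := fun h => h2 (orderOf_dvd_iff_pow_eq_one.1 h)
  have h3' : ¬ orderOf (mk ((-1 : ℤˣ), u (1 : F)) (0 : VV F)) ∣ 3 := fun h => h3 (orderOf_dvd_iff_pow_eq_one.1 h)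
  obtain ⟨n, hn⟩ : ∃ n, n = orderOf (mk ((-1 : ℤˣ), u (1 : F)) (0 : VV F)) := ⟨_, rfl⟩
  rw [← hn] at hd h2' h3' ⊢
  have hle : n ≤ 6 := Nat.le_of_dvd (by norm_num) hd
  interval_cases n <;> omega

omit [Fintype F] in
theorem exists_nine : ∃ a v, orderOf (mk (F := F) a v) = 9 := by
  refine ⟨(1, u 1), !![0, 0; 0, 1], ?_⟩
  have h1 : L F (((1 : ℤˣ), u (1 : F)) ^ 3) = 1 := by
    rw [Prod.pow_mk, u_pow_three, one_pow]
    exact map_one (L F)
  have h9 : (mk ((1 : ℤˣ), u (1 : F)) !![0, 0; 0, 1]) ^ 9 = 1 := pow_mul_three (k := 3) h1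
  have h3 : (mk ((1 : ℤˣ), u (1 : F)) !![0, 0; 0, 1]) ^ 3 ≠ 1 := by
    intro h
    rw [mk_pow, mk_eq_one] at h
    have h4 := congrFun (congrFun h.2 0) 0
    have hfr : (fr F (u 1)).1 = !![1, 1; 0, 1] := by
      ext i j
      show frobenius F 3 ((u (1 : F)).1 i j) = _
      fin_cases i <;> fin_cases j <;> simp [frobenius_def]
    have hL : ∀ X : VV F, L F ((1 : ℤˣ), u (1 : F)) X = !![1, 1; 0, 1] * X * !![1, 0; 1, 1] := by
      intro X
      rw [L_apply]
      simp only [Units.val_one, one_smul]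
      rw [hfr, u_coe]
      congr 1
      ext i j
      fin_cases i <;> fin_cases j <;> simp
    rw [Finset.sum_range_succ, Finset.sum_range_succ, Finset.sum_range_one, pow_zero, pow_one, map_one, pow_two, map_mul] at h4
    have e1 : (L F ((1 : ℤˣ), u (1 : F)) * L F ((1 : ℤˣ), u (1 : F))) !![0, 0; 0, 1] = L F ((1 : ℤˣ), u (1 : F)) (L F ((1 : ℤˣ), u (1 : F)) !![0, 0; 0, 1]) := rfl
    have e2 : (1 : AddMonoid.End (VV F)) !![0, 0; 0, 1] = !![0, 0; 0, 1] := rfl
    rw [e1, e2, hL, hL] at h4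
    simp [Matrix.mul_apply, Fin.sum_univ_two] at h4
    apply two_ne (F := F)
    have h3 := three_zero (F := F)
    norm_num at h4
    linear_combination h4 - h3
  have hd := orderOf_dvd_of_pow_eq_one h9
  have h3' : ¬ orderOf (mk ((1 : ℤˣ), u (1 : F)) !![0, 0; 0, 1]) ∣ 3 := fun h => h3 (orderOf_dvd_iff_pow_eq_one.1 h)
  obtain ⟨n, hn⟩ : ∃ n, n = orderOf (mk ((1 : ℤˣ), u (1 : F)) !![0, 0; 0, 1]) := ⟨_, rfl⟩
  rw [← hn] at hd h3' ⊢
  have hle : n ≤ 9 := Nat.le_of_dvd (by norm_num) hd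
  interval_cases n <;> omega

end Cfsg.Agent.H15.TW
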