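import Mathlib
import Cfsg.Agent.H15_Wt2
import Cfsg.Agent.H15_WtSp

set_option autoImplicit false
open Module

namespace Cfsg.Agent.H15.Weil

variable {F : Type*} [Field F] [Fintype F] [DecidableEq F] {n : ℕ} (ψ : AddChar F ℂ)

abbrev Fn (F : Type*) (n : ℕ) := (Fin n → F) → ℂ

/-- Weyl operators: `(π(a,b) f)(x) = ψ(b·x + a·b/2) f(x + a)` -/
noncomputable def wey (a b : Fin n → F) : Module.End ℂ (Fn F n) where
  toFun f := fun x => ψ (b ⬝ᵥ x + (a ⬝ᵥ b) / 2) * f (x + a)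
  map_add' f g := by ext x; simp [mul_add]
  map_smul' c f := by ext x; simp; ring

theorem wey_apply (a b : Fin n → F) (f : Fn F n) (x : Fin n → F) :
    wey ψ a b f x = ψ (b ⬝ᵥ x + (a ⬝ᵥ b) / 2) * f (x + a) := rfl

theorem wey_mul (h2 : (2 : F) ≠ 0) (a b a' b' : Fin n → F) :
    wey ψ a b * wey ψ a' b' = ψ ((a ⬝ᵥ b' - a' ⬝ᵥ b) / 2) • wey ψ (a + a') (b + b') := by
  apply LinearMap.ext
  intro f
  funext x
  rw [Module.End.mul_apply, wey_apply, wey_apply, LinearMap.smul_apply, Pi.smul_apply, wey_apply, smul_eq_mul,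
    ← mul_assoc, ← mul_assoc, ← AddChar.map_add_eq_mul, ← AddChar.map_add_eq_mul, add_assoc x]
  congr 2
  simp only [add_dotProduct, dotProduct_add, dotProduct_comm b' a, dotProduct_comm b a, dotProduct_comm b' a']
  field_simp
  ring

theorem wey_zero : wey ψ (0 : Fin n → F) 0 = 1 := by
  apply LinearMap.ext
  intro f
  funext x
  simp [wey_apply]

/-- an invariant subspace of the Weyl operators is everything -/
theorem irr (hψ : ψ ≠ 1) (N : Submodule ℂ (Fn F n)) (hN : N ≠ ⊥) (h : ∀ a b, ∀ f ∈ N, wey ψ a b f ∈ N) : N = ⊤ := by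
  classical
  obtain ⟨f, hf, hf0⟩ := Submodule.exists_mem_ne_zero_of_ne_bot hN
  obtain ⟨x₀, hx₀⟩ := Function.ne_iff.mp hf0
  simp only [Pi.zero_apply] at hx₀
  have h1 : ∑ b : Fin n → F, ψ (-(b ⬝ᵥ x₀)) • wey ψ 0 b f ∈ N :=
    Submodule.sum_mem _ (fun b _ => Submodule.smul_mem _ _ (h _ _ _ hf))
  have h2 : ∑ b : Fin n → F, ψ (-(b ⬝ᵥ x₀)) • wey ψ 0 b f = (Fintype.card (Fin n → F) * f x₀ : ℂ) • Pi.single x₀ 1 := by
    funext x
    rw [Finset.sum_apply]
    simp only [Pi.smul_apply, wey_apply, smul_eq_mul, zero_dotProduct, zero_div, add_zero]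
    simp only [← mul_assoc, ← AddChar.map_add_eq_mul]
    rw [← Finset.sum_mul]
    have h3 : ∀ b : Fin n → F, -(b ⬝ᵥ x₀) + b ⬝ᵥ x = b ⬝ᵥ (x - x₀) := by
      intro b; rw [dotProduct_sub]; ring
    simp only [h3]
    by_cases hx : x = x₀
    · subst hx
      simp
    · rw [Pi.single_eq_of_ne hx, mul_zero]
      have h4 : ∑ b : Fin n → F, ψ (b ⬝ᵥ (x - x₀)) = 0 := by
        obtain ⟨i, hi⟩ := Function.ne_iff.mp (sub_ne_zero.mpr hx)
        simp only [Pi.zero_apply] at hi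
        have h5 : (∑ b : Fin n → F, ψ (b ⬝ᵥ (x - x₀))) = ∑ b : Fin n → F, (ψ.compAddMonoidHom
            { toFun := fun b : Fin n → F => b ⬝ᵥ (x - x₀), map_zero' := by simp, map_add' := fun a b => by rw [add_dotProduct] }) b := rfl
        rw [h5]
        apply AddChar.sum_eq_zero_of_ne_one
        intro h6
        apply hψ
        ext y
        have h7 := congrArg (fun χ : AddChar (Fin n → F) ℂ => χ (Pi.single i (y / (x - x₀) i))) h6
        simp only [AddChar.compAddMonoidHom_apply, AddMonoidHom.coe_mk, ZeroHom.coe_mk, AddChar.one_apply] at h7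
        rw [single_dotProduct, div_mul_cancel₀ _ hi] at h7
        rw [h7, AddChar.one_apply]
      rw [h4, zero_mul]
  rw [h2] at h1
  have h3 : (Pi.single x₀ (1 : ℂ) : Fn F n) ∈ N := by
    have h4 : ((Fintype.card (Fin n → F) : ℂ) * f x₀) ≠ 0 := by
      refine mul_ne_zero ?_ hx₀
      exact_mod_cast Fintype.card_ne_zero
    have := Submodule.smul_mem N ((Fintype.card (Fin n → F) : ℂ) * f x₀)⁻¹ h1
    rwa [smul_smul, inv_mul_cancel₀ h4, one_smul] at this
  have h4 : ∀ y, (Pi.single y (1 : ℂ) : Fn F n) ∈ N := by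
    intro y
    have h5 := h (x₀ - y) 0 _ h3
    have h6 : wey ψ (x₀ - y) 0 (Pi.single x₀ (1 : ℂ)) = Pi.single y (1 : ℂ) := by
      funext x
      rw [wey_apply]
      simp only [zero_dotProduct, dotProduct_zero, zero_div, add_zero, AddChar.map_zero_eq_one, one_mul]
      by_cases hx : x = y
      · subst hx; simp
      · rw [Pi.single_eq_of_ne hx, Pi.single_eq_of_ne]
        intro h7
        apply hx
        have : x = x + (x₀ - y) - x₀ + y := by abel
        rw [this, h7]; abel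
    rwa [h6] at h5
  rw [eq_top_iff]
  intro g _
  have : g = ∑ y, g y • (Pi.single y (1 : ℂ) : Fn F n) := by
    funext x
    rw [Finset.sum_apply, Finset.sum_eq_single x]
    · simp
    · intro y _ hy
      simp [Pi.single_eq_of_ne (Ne.symm hy)]
    · intro h; exact absurd (Finset.mem_univ _) h
  rw [this]
  exact Submodule.sum_mem _ (fun y _ => Submodule.smul_mem _ _ (h4 y))


/-- Weyl operators indexed by the symplectic space -/
noncomputable def pi (w : Fin n ⊕ Fin n → F) : Module.End ℂ (Fn F n) := wey ψ (fun i => w (Sum.inl i)) (fun i => w (Sum.inr i))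

theorem form_eq (u v : Fin n ⊕ Fin n → F) : Cfsg.sympForm n F u v =
    (fun i => u (Sum.inr i)) ⬝ᵥ (fun i => v (Sum.inl i)) - (fun i => u (Sum.inl i)) ⬝ᵥ (fun i => v (Sum.inr i)) := by
  rw [Cfsg.sympForm, Matrix.J, Matrix.fromBlocks_mulVec, dotProduct]
  simp only [Matrix.zero_mulVec, zero_add, Matrix.one_mulVec, add_zero,
    Matrix.neg_mulVec, Fintype.sum_sum_type, Sum.elim_inl, Sum.elim_inr, dotProduct, Pi.neg_apply, Function.comp_apply]
  simp only [mul_neg, Finset.sum_neg_distrib]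
  ring

theorem pi_mul (h2 : (2 : F) ≠ 0) (w w' : Fin n ⊕ Fin n → F) :
    pi ψ w * pi ψ w' = ψ (-(Cfsg.sympForm n F w w') / 2) • pi ψ (w + w') := by
  rw [pi, pi, wey_mul ψ h2, form_eq, dotProduct_comm (fun i => w (Sum.inr i)), neg_sub]
  rfl

theorem pi_zero : pi ψ (0 : Fin n ⊕ Fin n → F) = 1 := wey_zero ψ

theorem pi_comm (h2 : (2 : F) ≠ 0) (w w' : Fin n ⊕ Fin n → F) :
    pi ψ w * pi ψ w' = ψ (-(Cfsg.sympForm n F w w')) • (pi ψ w' * pi ψ w) := by
  rw [pi_mul ψ h2, pi_mul ψ h2, smul_smul, ← AddChar.map_add_eq_mul, add_comm w', Cfsg.Agent.H5.Symp.swap w w']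
  congr 2
  field_simp
  ring

theorem pi_neg (h2 : (2 : F) ≠ 0) (w : Fin n ⊕ Fin n → F) : pi ψ w * pi ψ (-w) = 1 := by
  rw [pi_mul ψ h2, add_neg_cancel, pi_zero]
  have : Cfsg.sympForm n F w (-w) = 0 := by
    have h := Cfsg.Agent.H5.Symp.smul_right (-1 : F) w w
    rw [neg_one_smul, Cfsg.Agent.H5.Symp.self, mul_zero] at h
    exact h
  rw [this]
  simp

theorem irr' (hψ : ψ ≠ 1) (N : Submodule ℂ (Fn F n)) (hN : N ≠ ⊥) (h : ∀ w, ∀ f ∈ N, pi ψ w f ∈ N) : N = ⊤ :=
  irr ψ hψ N hN (fun a b f hf => h (Sum.elim a b) f hf)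

/-- Schur's lemma -/
theorem schur (hψ : ψ ≠ 1) (A : Module.End ℂ (Fn F n)) (hA : ∀ w, A * pi ψ w = pi ψ w * A) : ∃ c : ℂ, A = c • 1 := by
  haveI : Nontrivial (Fn F n) := by
    unfold Fn; infer_instance
  obtain ⟨c, hc⟩ := Module.End.exists_eigenvalue A
  refine ⟨c, ?_⟩
  have h1 := irr' ψ hψ (Module.End.eigenspace A c) hc (by
    intro w f hf
    rw [Module.End.mem_eigenspace_iff] at hf ⊢
    have := congrArg (fun B : Module.End ℂ (Fn F n) => B f) (hA w)
    simp only [Module.End.mul_apply] at this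
    rw [this, hf, map_smul])
  apply LinearMap.ext
  intro f
  have h2 : f ∈ Module.End.eigenspace A c := by rw [h1]; trivial
  rw [Module.End.mem_eigenspace_iff] at h2
  rw [h2]; rfl

theorem trace_pi (hψ : ψ ≠ 1) (h2 : (2 : F) ≠ 0) {w : Fin n ⊕ Fin n → F} (hw : w ≠ 0) :
    LinearMap.trace ℂ (Fn F n) (pi ψ w) = 0 := by
  obtain ⟨v, hv⟩ := Cfsg.Agent.H5.Symp.exists_ne hw
  obtain ⟨y, hy⟩ : ∃ y, ψ y ≠ 1 := by
    by_contra hcon
    push Not at hcon
    apply hψ
    ext y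
    rw [hcon y, AddChar.one_apply]
  set v' := (-(y / Cfsg.sympForm n F w v)) • v with hv'
  have h3 : -(Cfsg.sympForm n F w v') = y := by
    rw [hv', Cfsg.Agent.H5.Symp.smul_right]
    field_simp
  have h4 := pi_comm ψ h2 w v'
  rw [h3] at h4
  have h5 : pi ψ w = ψ y • (pi ψ v' * pi ψ w * pi ψ (-v')) := by
    rw [← smul_mul_assoc, ← h4, mul_assoc, pi_neg ψ h2, mul_one]
  have h6 := congrArg (LinearMap.trace ℂ (Fn F n)) h5
  rw [map_smul, mul_assoc, LinearMap.trace_mul_comm, mul_assoc] at h6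
  have h7 : pi ψ (-v') * pi ψ v' = 1 := by
    have := pi_neg ψ h2 (-v')
    rwa [neg_neg] at this
  rw [h7, mul_one] at h6
  have h8 : (1 - ψ y) * LinearMap.trace ℂ (Fn F n) (pi ψ w) = 0 := by
    rw [sub_mul, one_mul]
    nth_rewrite 1 [h6]
    rw [smul_eq_mul, sub_self]
  exact (mul_eq_zero.mp h8).resolve_left (sub_ne_zero.mpr (Ne.symm hy))

/-- the group of pairs -/
def Ga (n : ℕ) : Subgroup (Matrix.symplecticGroup (Fin n) F × (Module.End ℂ (Fn F n))ˣ) where
  carrier := {p | ∀ w, (p.2 : Module.End ℂ (Fn F n)) * pi ψ w =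
    pi ψ ((p.1 : Matrix (Fin n ⊕ Fin n) (Fin n ⊕ Fin n) F).mulVec w) * p.2}
  mul_mem' := by
    rintro ⟨g, A⟩ ⟨h, B⟩ hA hB w
    simp only [Set.mem_setOf_eq] at hA hB
    show (A * B : Module.End ℂ (Fn F n)) * pi ψ w = pi ψ (((g * h : Matrix.symplecticGroup (Fin n) F) :
      Matrix (Fin n ⊕ Fin n) (Fin n ⊕ Fin n) F).mulVec w) * (A * B : Module.End ℂ (Fn F n))
    rw [mul_assoc, hB, ← mul_assoc, hA, Submonoid.coe_mul, ← Matrix.mulVec_mulVec, mul_assoc]
  one_mem' := by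
    intro w
    show (1 : Module.End ℂ (Fn F n)) * pi ψ w = pi ψ ((1 : Matrix (Fin n ⊕ Fin n) (Fin n ⊕ Fin n) F).mulVec w) * (1 : Module.End ℂ (Fn F n))
    rw [Matrix.one_mulVec, one_mul, mul_one]
  inv_mem' := by
    rintro ⟨g, A⟩ hA w
    simp only [Set.mem_setOf_eq] at hA
    show (A⁻¹ : (Module.End ℂ (Fn F n))ˣ) * pi ψ w = pi ψ (((g⁻¹ : Matrix.symplecticGroup (Fin n) F) :
      Matrix (Fin n ⊕ Fin n) (Fin n ⊕ Fin n) F).mulVec w) * (A⁻¹ : (Module.End ℂ (Fn F n))ˣ)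
    have h1 := hA (((g⁻¹ : Matrix.symplecticGroup (Fin n) F) : Matrix (Fin n ⊕ Fin n) (Fin n ⊕ Fin n) F).mulVec w)
    rw [Matrix.mulVec_mulVec, ← Submonoid.coe_mul, mul_inv_cancel, Submonoid.coe_one, Matrix.one_mulVec] at h1
    calc (A⁻¹ : (Module.End ℂ (Fn F n))ˣ) * pi ψ w = (A⁻¹ : (Module.End ℂ (Fn F n))ˣ) * (pi ψ w * A) * (A⁻¹ : (Module.End ℂ (Fn F n))ˣ) := by
          rw [mul_assoc, mul_assoc, Units.mul_inv, mul_one]
      _ = (A⁻¹ : (Module.End ℂ (Fn F n))ˣ) * (A * pi ψ (((g⁻¹ : Matrix.symplecticGroup (Fin n) F) :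
      Matrix (Fin n ⊕ Fin n) (Fin n ⊕ Fin n) F).mulVec w)) * (A⁻¹ : (Module.End ℂ (Fn F n))ˣ) := by rw [h1]
      _ = _ := by rw [← mul_assoc, Units.inv_mul, one_mul]

theorem mem_Ga {g : Matrix.symplecticGroup (Fin n) F} {A : (Module.End ℂ (Fn F n))ˣ} :
    (g, A) ∈ Ga ψ n ↔ ∀ w, (A : Module.End ℂ (Fn F n)) * pi ψ w =
    pi ψ ((g : Matrix (Fin n ⊕ Fin n) (Fin n ⊕ Fin n) F).mulVec w) * A := Iff.rfl

/-- a non-zero intertwiner is invertible -/
theorem unit_of_int (hψ : ψ ≠ 1) (g : Matrix.symplecticGroup (Fin n) F) (M : Module.End ℂ (Fn F n)) (hM : M ≠ 0)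
    (h : ∀ w, M * pi ψ w = pi ψ ((g : Matrix (Fin n ⊕ Fin n) (Fin n ⊕ Fin n) F).mulVec w) * M) :
    ∃ A : (Module.End ℂ (Fn F n))ˣ, (g, A) ∈ Ga ψ n := by
  have hker : LinearMap.ker M = ⊥ := by
    by_contra hne
    have h1 := irr' ψ hψ (LinearMap.ker M) hne (by
      intro w f hf
      rw [LinearMap.mem_ker] at hf ⊢
      have := congrArg (fun B : Module.End ℂ (Fn F n) => B f) (h w)
      simp only [Module.End.mul_apply] at this
      rw [this, hf, map_zero])
    exact hM (LinearMap.ker_eq_top.mp h1)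
  have hu : IsUnit M := by
    rw [LinearMap.isUnit_iff_ker_eq_bot]
    exact hker
  obtain ⟨A, hA⟩ := hu
  exact ⟨A, by rw [mem_Ga, hA]; exact h⟩

theorem exists_T (hψ : ψ ≠ 1) (h2 : (2 : F) ≠ 0) (v : Fin n ⊕ Fin n → F) (c : F) :
    ∃ A : (Module.End ℂ (Fn F n))ˣ, (Cfsg.Agent.H5.Symp.T v c, A) ∈ Ga ψ n := by
  by_cases hc : c = 0
  · refine ⟨1, ?_⟩
    rw [hc, Cfsg.Agent.H5.Symp.T_zero]
    exact (Ga ψ n).one_mem
  by_cases hv : v = 0
  · refine ⟨1, ?_⟩
    rw [hv]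
    have h3 := Cfsg.Agent.H5.Symp.T_smul (m := n) (0 : F) (0 : Fin n ⊕ Fin n → F) c
    rw [zero_smul] at h3
    rw [h3]
    simp only [ne_eq, OfNat.ofNat_ne_zero, not_false_eq_true, zero_pow, zero_mul]
    rw [Cfsg.Agent.H5.Symp.T_zero]
    exact (Ga ψ n).one_mem
  set κ : F := -1 / (2 * c) with hκ
  set M : Module.End ℂ (Fn F n) := ∑ t : F, ψ (κ * t ^ 2) • pi ψ (t • v) with hM
  apply unit_of_int ψ hψ _ M
  · intro h0
    have h3 : LinearMap.trace ℂ (Fn F n) M = LinearMap.trace ℂ (Fn F n) 1 := by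
      rw [hM, map_sum, Finset.sum_eq_single 0]
      · rw [zero_smul, pi_zero]
        simp
      · intro t _ ht
        rw [map_smul, trace_pi ψ hψ h2 (smul_ne_zero ht hv), smul_zero]
      · intro h; exact absurd (Finset.mem_univ _) h
    rw [h0, map_zero, LinearMap.trace_one] at h3
    have h4 : finrank ℂ (Fn F n) = Fintype.card (Fin n → F) := Module.finrank_fintype_fun_eq_card ℂ
    rw [h4] at h3
    exact Fintype.card_ne_zero (α := Fin n → F) (by exact_mod_cast h3.symm)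
  · intro w
    rw [Cfsg.Agent.H5.Symp.T_apply]
    set l := Cfsg.sympForm n F w v with hl
    rw [hM, Finset.sum_mul, Finset.mul_sum]
    rw [← Equiv.sum_comp (Equiv.addRight (c * l))]
    apply Finset.sum_congr rfl
    intro s _
    rw [Equiv.coe_addRight, smul_mul_assoc, mul_smul_comm, pi_mul ψ h2, pi_mul ψ h2, smul_smul, smul_smul,
      ← AddChar.map_add_eq_mul, ← AddChar.map_add_eq_mul]
    have e1 : Cfsg.sympForm n F ((s + c * l) • v) w = -((s + c * l) * l) := by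
      rw [Cfsg.Agent.H5.Symp.smul_left, Cfsg.Agent.H5.Symp.swap w v, ← hl]; ring
    have e2 : Cfsg.sympForm n F (w + (c * l) • v) (s • v) = s * l := by
      rw [Cfsg.Agent.H5.Symp.smul_right, Cfsg.Agent.H5.Symp.add_left, Cfsg.Agent.H5.Symp.smul_left,
        Cfsg.Agent.H5.Symp.self, mul_zero, add_zero]
    rw [e1, e2]
    congr 2
    · rw [hκ]
      field_simp
      ring
    · rw [add_smul]
      abel_nf

theorem Ga_mul {g h : Matrix.symplecticGroup (Fin n) F} {A B : (Module.End ℂ (Fn F n))ˣ} (hA : (g, A) ∈ Ga ψ n)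
    (hB : (h, B) ∈ Ga ψ n) : (g * h, A * B) ∈ Ga ψ n := by
  rw [← Prod.mk_mul_mk]
  exact mul_mem hA hB

theorem Ga_inv {g : Matrix.symplecticGroup (Fin n) F} {A : (Module.End ℂ (Fn F n))ˣ} (hA : (g, A) ∈ Ga ψ n) :
    (g⁻¹, A⁻¹) ∈ Ga ψ n := by
  rw [← Prod.inv_mk]
  exact inv_mem hA

theorem Ga_one : ((1 : Matrix.symplecticGroup (Fin n) F), (1 : (Module.End ℂ (Fn F n))ˣ)) ∈ Ga ψ n := (Ga ψ n).one_mem

theorem exists_Ga (hψ : ψ ≠ 1) (h2 : (2 : F) ≠ 0) (g : Matrix.symplecticGroup (Fin n) F) :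
    ∃ A : (Module.End ℂ (Fn F n))ˣ, (g, A) ∈ Ga ψ n := by
  let S : Subgroup (Matrix.symplecticGroup (Fin n) F) :=
    { carrier := {g | ∃ A : (Module.End ℂ (Fn F n))ˣ, (g, A) ∈ Ga ψ n}
      mul_mem' := fun ⟨A, hA⟩ ⟨B, hB⟩ => ⟨A * B, Ga_mul ψ hA hB⟩
      one_mem' := ⟨1, Ga_one ψ⟩
      inv_mem' := fun ⟨A, hA⟩ => ⟨A⁻¹, Ga_inv ψ hA⟩ }
  have h1 : Cfsg.Agent.H5.Symp.H n F ≤ S := by
    rw [Cfsg.Agent.H5.Symp.H, Subgroup.closure_le]
    rintro x ⟨w, c, hx⟩
    have : x = Cfsg.Agent.H5.Symp.T w c := Subtype.ext hx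
    rw [this]
    exact exists_T ψ hψ h2 w c
  rw [Cfsg.Agent.H5.Symp.H_eq_top] at h1
  exact h1 (Subgroup.mem_top g)

/-! ### parity -/

/-- parity operator -/
noncomputable def Pa : Module.End ℂ (Fn F n) where
  toFun f := fun x => f (-x)
  map_add' f g := rfl
  map_smul' c f := rfl

omit [Fintype F] [DecidableEq F] in
theorem Pa_apply (f : Fn F n) (x : Fin n → F) : Pa f x = f (-x) := rfl

omit [Fintype F] [DecidableEq F] in
theorem Pa_sq : (Pa : Module.End ℂ (Fn F n)) * Pa = 1 := by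
  apply LinearMap.ext
  intro f
  funext x
  rw [Module.End.mul_apply, Pa_apply, Pa_apply, neg_neg]
  rfl

theorem Pa_pi (w : Fin n ⊕ Fin n → F) : (Pa : Module.End ℂ (Fn F n)) * pi ψ w = pi ψ (-w) * Pa := by
  apply LinearMap.ext
  intro f
  funext x
  rw [Module.End.mul_apply, Pa_apply, pi, wey_apply, Module.End.mul_apply, pi, wey_apply, Pa_apply]
  simp only [Pi.neg_apply]
  have e1 : (fun i => -w (Sum.inl i)) = -(fun i => w (Sum.inl i)) := rfl
  have e2 : (fun i => -w (Sum.inr i)) = -(fun i => w (Sum.inr i)) := rfl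
  rw [e1, e2]
  congr 2
  · simp
  · abel

theorem trace_Pa (h2 : (2 : F) ≠ 0) : LinearMap.trace ℂ (Fn F n) Pa = 1 := by
  rw [LinearMap.trace_eq_matrix_trace ℂ (Pi.basisFun ℂ (Fin n → F)), Matrix.trace, Finset.sum_eq_single 0]
  · simp [LinearMap.toMatrix_apply, Pa_apply]
  · intro x _ hx
    rw [Matrix.diag_apply, LinearMap.toMatrix_apply, Pi.basisFun_apply, Pi.basisFun_repr, Pa_apply, Pi.single_eq_of_ne]
    intro h
    apply hx
    have h3 : (2 : F) • x = 0 := by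
      rw [two_smul]
      nth_rewrite 1 [← h]
      exact neg_add_cancel x
    exact (smul_eq_zero.mp h3).resolve_left h2
  · intro h; exact absurd (Finset.mem_univ _) h

theorem Ga_Pa (hψ : ψ ≠ 1) (h2 : (2 : F) ≠ 0) {g : Matrix.symplecticGroup (Fin n) F} {A : (Module.End ℂ (Fn F n))ˣ}
    (hA : (g, A) ∈ Ga ψ n) : (A : Module.End ℂ (Fn F n)) * (Pa : Module.End ℂ (Fn F n)) = Pa * (A : Module.End ℂ (Fn F n)) := by
  have hA' := (mem_Ga ψ).mp hA
  have hAi := (mem_Ga ψ).mp (Ga_inv ψ hA)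
  have hAAi : (A : Module.End ℂ (Fn F n)) * ((A⁻¹ : (Module.End ℂ (Fn F n))ˣ) : Module.End ℂ (Fn F n)) = 1 := A.mul_inv
  have hAiA : ((A⁻¹ : (Module.End ℂ (Fn F n))ˣ) : Module.End ℂ (Fn F n)) * (A : Module.End ℂ (Fn F n)) = 1 := A.inv_mul
  generalize ((A⁻¹ : (Module.End ℂ (Fn F n))ˣ) : Module.End ℂ (Fn F n)) = Ai at *
  generalize (A : Module.End ℂ (Fn F n)) = B at *
  obtain ⟨c, hc⟩ := schur ψ hψ (B * Pa * Ai * Pa) (by
    intro w
    have hgg : (g : Matrix (Fin n ⊕ Fin n) (Fin n ⊕ Fin n) F).mulVec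
        (((g⁻¹ : Matrix.symplecticGroup (Fin n) F) : Matrix (Fin n ⊕ Fin n) (Fin n ⊕ Fin n) F).mulVec w) = w := by
      rw [Matrix.mulVec_mulVec, ← Submonoid.coe_mul, mul_inv_cancel, Submonoid.coe_one, Matrix.one_mulVec]
    calc B * Pa * Ai * Pa * pi ψ w = B * Pa * (Ai * pi ψ (-w)) * Pa := by
          simp only [mul_assoc]; rw [Pa_pi]
      _ = B * (Pa * pi ψ (((g⁻¹ : Matrix.symplecticGroup (Fin n) F) : Matrix (Fin n ⊕ Fin n) (Fin n ⊕ Fin n) F).mulVec (-w))) * Ai * Pa := by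
          rw [hAi]; simp only [mul_assoc]
      _ = (B * pi ψ (((g⁻¹ : Matrix.symplecticGroup (Fin n) F) : Matrix (Fin n ⊕ Fin n) (Fin n ⊕ Fin n) F).mulVec w)) * Pa * Ai * Pa := by
          rw [Pa_pi, Matrix.mulVec_neg, neg_neg]; simp only [mul_assoc]
      _ = _ := by rw [hA', hgg]; simp only [mul_assoc])
  have h3 : B * Pa * Ai = c • (Pa : Module.End ℂ (Fn F n)) := by
    calc B * Pa * Ai = (B * Pa * Ai * Pa) * Pa := by rw [mul_assoc _ Pa Pa, Pa_sq, mul_one]
      _ = _ := by rw [hc, smul_mul_assoc, one_mul]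
  have h4 : c = 1 := by
    have h5 := congrArg (LinearMap.trace ℂ (Fn F n)) h3
    rw [map_smul, LinearMap.trace_mul_comm, ← mul_assoc, hAiA, one_mul, trace_Pa h2, smul_eq_mul, mul_one] at h5
    exact h5.symm
  rw [h4, one_smul] at h3
  calc B * Pa = B * Pa * Ai * B := by rw [mul_assoc _ Ai, hAiA, mul_one]
    _ = Pa * B := by rw [h3]

/-- even and odd functions -/
noncomputable def Vs (F : Type*) [Field F] (n : ℕ) (ε : ℂ) : Submodule ℂ (Fn F n) := Module.End.eigenspace Pa ε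

theorem finrank_Vs (h2 : (2 : F) ≠ 0) (ε : ℂ) (hε : ε * ε = 1) :
    (2 : ℂ) * finrank ℂ (Vs F n ε) = (Fintype.card F : ℂ) ^ n + ε := by
  have hproj : LinearMap.IsProj (Vs F n ε) ((1 / 2 : ℂ) • (1 + ε • Pa) : Module.End ℂ (Fn F n)) := by
    constructor
    · intro f
      rw [Vs, Module.End.mem_eigenspace_iff]
      funext x
      simp only [LinearMap.smul_apply, LinearMap.add_apply, Module.End.one_apply, map_smul, map_add]
      simp only [Pi.smul_apply, Pi.add_apply, Pa_apply, smul_eq_mul, neg_neg]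
      linear_combination (-(1/2) * f (-x)) * hε
    · intro f hf
      rw [Vs, Module.End.mem_eigenspace_iff] at hf
      simp only [LinearMap.smul_apply, LinearMap.add_apply, Module.End.one_apply, hf, smul_smul, hε, one_smul]
      rw [← two_smul ℂ f, smul_smul]
      norm_num
  have h3 := hproj.trace
  rw [map_smul, map_add, map_smul, trace_Pa h2, LinearMap.trace_one] at h3
  have h4 : finrank ℂ (Fn F n) = Fintype.card (Fin n → F) := Module.finrank_fintype_fun_eq_card ℂ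
  rw [h4, Fintype.card_fun, Fintype.card_fin, smul_eq_mul, smul_eq_mul] at h3
  rw [← h3]
  push_cast
  ring


/-- operators commuting with parity -/
noncomputable def Cz (F : Type*) [Field F] (n : ℕ) : Submonoid (Module.End ℂ (Fn F n)) where
  carrier := {B | B * Pa = Pa * B}
  mul_mem' := by
    intro a b ha hb
    simp only [Set.mem_setOf_eq] at *
    rw [mul_assoc, hb, ← mul_assoc, ha, mul_assoc]
  one_mem' := by simp

/-- restriction to the parity eigenspaces -/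
noncomputable def rr (F : Type*) [Field F] (n : ℕ) (ε : ℂ) : Cz F n →* Module.End ℂ (Vs F n ε) where
  toFun B := B.1.restrict (fun f hf => by
    rw [Vs, Module.End.mem_eigenspace_iff] at hf ⊢
    have h1 := congrArg (fun A : Module.End ℂ (Fn F n) => A f) B.2
    simp only [Module.End.mul_apply] at h1
    rw [← h1, hf, map_smul])
  map_one' := rfl
  map_mul' A B := rfl

theorem rr_coe {F : Type*} [Field F] {n : ℕ} (ε : ℂ) (B : Cz F n) (f : Vs F n ε) : ((rr F n ε B f : Vs F n ε) : Fn F n) = B.1 f := rfl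

/-- determinant ratio -/
noncomputable def Dr (F : Type*) [Field F] (n : ℕ) (B : Cz F n) : ℂ :=
  LinearMap.det (rr F n 1 B) / LinearMap.det (rr F n (-1) B)

/-- the normalised action on odd functions -/
noncomputable def Ph (F : Type*) [Field F] (n : ℕ) : Cz F n →* Module.End ℂ (Vs F n (-1)) where
  toFun B := (Dr F n B)⁻¹ • rr F n (-1) B
  map_one' := by simp [Dr]
  map_mul' A B := by
    have : Dr F n (A * B) = Dr F n A * Dr F n B := by
      rw [Dr, Dr, Dr, map_mul, map_mul, map_mul, map_mul, mul_div_mul_comm]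
    rw [this, map_mul, mul_inv, smul_mul_smul_comm]

theorem Ph_smul (h2 : (2 : F) ≠ 0) (A B : Cz F n) (c : ℂ) (hc : c ≠ 0) (h : B.1 = c • A.1) : Ph F n B = Ph F n A := by
  have h3 : ∀ ε, rr F n ε B = c • rr F n ε A := by
    intro ε
    apply LinearMap.ext
    intro f
    apply Subtype.ext
    rw [rr_coe, h]
    rfl
  have hd : finrank ℂ (Vs F n 1) = finrank ℂ (Vs F n (-1)) + 1 := by
    have h4 := finrank_Vs (n := n) h2 1 (by norm_num)
    have h5 := finrank_Vs (n := n) h2 (-1) (by norm_num)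
    have h6 : (2 : ℂ) * (finrank ℂ (Vs F n 1) : ℂ) = 2 * ((finrank ℂ (Vs F n (-1)) : ℂ) + 1) := by
      linear_combination h4 - h5
    have h7 := mul_left_cancel₀ (two_ne_zero) h6
    exact_mod_cast h7
  have h4 : Dr F n B = c * Dr F n A := by
    rw [Dr, Dr, h3, h3, LinearMap.det_smul, LinearMap.det_smul, hd, pow_succ]
    have : c ^ finrank ℂ (Vs F n (-1)) ≠ 0 := pow_ne_zero _ hc
    field_simp
  show (Dr F n B)⁻¹ • rr F n (-1) B = (Dr F n A)⁻¹ • rr F n (-1) A
  rw [h4, h3, smul_smul, mul_inv, mul_comm c⁻¹, mul_assoc, inv_mul_cancel₀ hc, mul_one]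

theorem Ga_uniq (hψ : ψ ≠ 1) {g : Matrix.symplecticGroup (Fin n) F} {A B : (Module.End ℂ (Fn F n))ˣ} (hA : (g, A) ∈ Ga ψ n)
    (hB : (g, B) ∈ Ga ψ n) : ∃ c : ℂ, c ≠ 0 ∧ (B : Module.End ℂ (Fn F n)) = c • (A : Module.End ℂ (Fn F n)) := by
  have h1 := (mem_Ga ψ).mp (Ga_mul ψ hB (Ga_inv ψ hA))
  obtain ⟨c, hc⟩ := schur ψ hψ ((B * A⁻¹ : (Module.End ℂ (Fn F n))ˣ) : Module.End ℂ (Fn F n)) (by
    intro w
    rw [h1, mul_inv_cancel, Submonoid.coe_one, Matrix.one_mulVec])
  have h2 : (B : Module.End ℂ (Fn F n)) = c • (A : Module.End ℂ (Fn F n)) := by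
    calc (B : Module.End ℂ (Fn F n)) = ((B * A⁻¹ : (Module.End ℂ (Fn F n))ˣ) : Module.End ℂ (Fn F n)) * A := by
          rw [Units.val_mul, mul_assoc, Units.inv_mul, mul_one]
      _ = _ := by rw [hc, smul_mul_assoc, one_mul]
  refine ⟨c, ?_, h2⟩
  rintro rfl
  rw [zero_smul] at h2
  haveI : Nontrivial (Fn F n) := by
    unfold Fn; infer_instance
  exact B.ne_zero h2

/-- the Weil representation on odd functions -/
noncomputable def weil (hψ : ψ ≠ 1) (h2 : (2 : F) ≠ 0) : Matrix.symplecticGroup (Fin n) F →* Module.End ℂ (Vs F n (-1)) where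
  toFun g := Ph F n ⟨(exists_Ga ψ hψ h2 g).choose, Ga_Pa ψ hψ h2 (exists_Ga ψ hψ h2 g).choose_spec⟩
  map_one' := by
    obtain ⟨c, hc, hcc⟩ := Ga_uniq ψ hψ (Ga_one ψ) (exists_Ga ψ hψ h2 (1 : Matrix.symplecticGroup (Fin n) F)).choose_spec
    rw [Ph_smul h2 1 _ c hc hcc, map_one]
  map_mul' g h := by
    obtain ⟨c, hc, hcc⟩ := Ga_uniq ψ hψ (Ga_mul ψ (exists_Ga ψ hψ h2 g).choose_spec (exists_Ga ψ hψ h2 h).choose_spec)
      (exists_Ga ψ hψ h2 (g * h)).choose_spec
    rw [← map_mul]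
    exact Ph_smul h2 _ _ c hc hcc

theorem weil_eq (hψ : ψ ≠ 1) (h2 : (2 : F) ≠ 0) {g : Matrix.symplecticGroup (Fin n) F} {A : (Module.End ℂ (Fn F n))ˣ}
    (hA : (g, A) ∈ Ga ψ n) : ∃ c : ℂ, c ≠ 0 ∧ ∀ f : Vs F n (-1), ((weil ψ hψ h2 g f : Vs F n (-1)) : Fn F n) =
      c • (A : Module.End ℂ (Fn F n)) f := by
  obtain ⟨c, hc, hcc⟩ := Ga_uniq ψ hψ hA (exists_Ga ψ hψ h2 g).choose_spec
  have h1 : weil ψ hψ h2 g = Ph F n ⟨A, Ga_Pa ψ hψ h2 hA⟩ := Ph_smul h2 _ _ c hc hcc
  refine ⟨(Dr F n ⟨A, Ga_Pa ψ hψ h2 hA⟩)⁻¹, ?_, ?_⟩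
  · refine inv_ne_zero ?_
    rw [Dr]
    have hu : ∀ ε, IsUnit (rr F n ε ⟨A, Ga_Pa ψ hψ h2 hA⟩) := by
      intro ε
      have hAi : ((A⁻¹ : (Module.End ℂ (Fn F n))ˣ) : Module.End ℂ (Fn F n)) * (Pa : Module.End ℂ (Fn F n)) = Pa * _ :=
        Ga_Pa ψ hψ h2 (Ga_inv ψ hA)
      refine isUnit_iff_exists.mpr ⟨rr F n ε ⟨_, hAi⟩, ?_, ?_⟩
      · rw [← map_mul]
        convert map_one (rr F n ε)
        exact Subtype.ext A.mul_inv
      · rw [← map_mul]
        convert map_one (rr F n ε)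
        exact Subtype.ext A.inv_mul
    have hd : ∀ ε, LinearMap.det (rr F n ε ⟨A, Ga_Pa ψ hψ h2 hA⟩) ≠ 0 := fun ε => ((hu ε).map LinearMap.det).ne_zero
    exact div_ne_zero (hd 1) (hd (-1))
  · intro f
    rw [h1]
    rfl

theorem finrank_odd (hodd : Odd (Fintype.card F)) (h2 : (2 : F) ≠ 0) :
    finrank ℂ (Vs F n (-1)) = (Fintype.card F ^ n - 1) / 2 := by
  have h5 := finrank_Vs (n := n) h2 (-1) (by norm_num)
  have h1 : 1 ≤ Fintype.card F ^ n := Nat.one_le_pow _ _ Fintype.card_pos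
  have h6 : ((2 * finrank ℂ (Vs F n (-1)) + 1 : ℕ) : ℂ) = ((Fintype.card F ^ n : ℕ) : ℂ) := by
    push_cast
    linear_combination h5
  have h7 : 2 * finrank ℂ (Vs F n (-1)) + 1 = Fintype.card F ^ n := by exact_mod_cast h6
  omega

theorem weil_nontrivial (hψ : ψ ≠ 1) (h2 : (2 : F) ≠ 0) (hn : 2 ≤ n) :
    ∃ g, (weil ψ hψ h2 g : Module.End ℂ (Vs F n (-1))) ≠ 1 := by
  by_contra hcon
  push Not at hcon
  set i₀ : Fin n := ⟨0, by omega⟩ with hi₀
  set i₁ : Fin n := ⟨1, by omega⟩ with hi₁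
  have hne : i₀ ≠ i₁ := by
    intro h0
    have := congrArg Fin.val h0
    simp [hi₀, hi₁] at this
  set y : Fin n → F := Pi.single i₀ 1 with hy
  set a : Fin n → F := Pi.single i₁ 1 with ha
  set w : Fin n ⊕ Fin n → F := Sum.elim a 0 with hw
  set w' : Fin n ⊕ Fin n → F := Sum.elim 0 a with hw'
  obtain ⟨g, _, hg⟩ := Cfsg.Agent.H5.Symp.H_transitive (u := w) (w := w') (by
      intro h0
      have := congrFun h0 (Sum.inl i₁)
      simp [hw, ha] at this) (by
      intro h0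
      have := congrFun h0 (Sum.inr i₁)
      simp [hw', ha] at this)
  obtain ⟨A, hA⟩ := exists_Ga ψ hψ h2 g
  obtain ⟨c, hc, hcf⟩ := weil_eq ψ hψ h2 hA
  have hscal : ∀ f : Fn F n, (∀ x, f (-x) = - f x) → (A : Module.End ℂ (Fn F n)) f = c⁻¹ • f := by
    intro f hf
    have hf' : f ∈ Vs F n (-1) := by
      rw [Vs, Module.End.mem_eigenspace_iff]
      funext x
      rw [Pa_apply, hf, Pi.smul_apply, smul_eq_mul, neg_one_mul]
    have h3 := hcf ⟨f, hf'⟩
    rw [hcon g] at h3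
    have h4 : f = c • (A : Module.End ℂ (Fn F n)) f := h3
    nth_rewrite 2 [h4]
    rw [smul_smul, inv_mul_cancel₀ hc, one_smul]
  -- the operator π(w) + π(-w)
  set f : Fn F n := Pi.single y 1 - Pi.single (-y) 1 with hf
  have hfodd : ∀ x, f (-x) = - f x := by
    intro x
    have e1 : (Pi.single y (1 : ℂ) : Fn F n) (-x) = (Pi.single (-y) (1 : ℂ) : Fn F n) x := by
      by_cases hx : x = -y
      · rw [hx, neg_neg]; simp
      · rw [Pi.single_eq_of_ne hx, Pi.single_eq_of_ne]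
        intro h; apply hx; rw [← h, neg_neg]
    have e2 : (Pi.single (-y) (1 : ℂ) : Fn F n) (-x) = (Pi.single y (1 : ℂ) : Fn F n) x := by
      by_cases hx : x = y
      · rw [hx]; simp
      · rw [Pi.single_eq_of_ne hx, Pi.single_eq_of_ne]
        intro h; apply hx; exact neg_injective h
    rw [hf, Pi.sub_apply, Pi.sub_apply, e1, e2]
    ring
  have hfw : ∀ x, (pi ψ w f + pi ψ (-w) f) (-x) = - (pi ψ w f + pi ψ (-w) f) x := by
    intro x
    have e1 : ∀ v : Fin n ⊕ Fin n → F, pi ψ v f (-x) = - pi ψ (-v) f x := by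
      intro v
      have h3 := congrArg (fun B : Module.End ℂ (Fn F n) => B f x) (Pa_pi ψ v)
      simp only [Module.End.mul_apply] at h3
      rw [Pa_apply] at h3
      rw [h3]
      have h4 : (Pa : Module.End ℂ (Fn F n)) f = -f := by
        funext z
        rw [Pa_apply, hfodd]; rfl
      rw [h4, map_neg]
      rfl
    rw [Pi.add_apply, Pi.add_apply, e1, e1, neg_neg]
    ring
  have h3 := hscal _ hfw
  have h4 : (A : Module.End ℂ (Fn F n)) (pi ψ w f + pi ψ (-w) f) = c⁻¹ • (pi ψ w' f + pi ψ (-w') f) := by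
    have h5 := (mem_Ga ψ).mp hA
    have h6 := congrArg (fun B : Module.End ℂ (Fn F n) => B f) (h5 w)
    have h7 := congrArg (fun B : Module.End ℂ (Fn F n) => B f) (h5 (-w))
    simp only [Module.End.mul_apply] at h6 h7
    rw [map_add, h6, h7, Matrix.mulVec_neg, hg, hscal f hfodd, map_smul, map_smul, smul_add]
  rw [h4] at h3
  have h5 : pi ψ w' f + pi ψ (-w') f = pi ψ w f + pi ψ (-w) f := by
    have := congrArg (fun x : Fn F n => c • x) h3
    simp only [smul_smul, mul_inv_cancel₀ hc, one_smul] at this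
    exact this
  have h6 := congrFun h5 y
  have hfy : f y = 1 := by
    rw [hf, Pi.sub_apply, Pi.single_eq_same, Pi.single_eq_of_ne, sub_zero]
    intro h
    have := congrFun h i₀
    rw [hy, Pi.neg_apply, Pi.single_eq_same] at this
    apply h2
    linear_combination this
  have hf0 : ∀ s : F, s ≠ 0 → f (y + s • a) = 0 := by
    intro s hs
    have e : (y + s • a) i₁ = s := by
      rw [Pi.add_apply, Pi.smul_apply, hy, ha, Pi.single_eq_of_ne hne.symm, Pi.single_eq_same]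
      simp
    rw [hf, Pi.sub_apply, Pi.single_eq_of_ne, Pi.single_eq_of_ne, sub_zero]
    · intro h
      have := congrFun h i₁
      rw [e, hy, Pi.neg_apply, Pi.single_eq_of_ne hne.symm, neg_zero] at this
      exact hs this
    · intro h
      have := congrFun h i₁
      rw [e, hy, Pi.single_eq_of_ne hne.symm] at this
      exact hs this
  have e1 : pi ψ w' f y = 1 := by
    rw [pi, wey_apply]
    have h7 : (fun i => w' (Sum.inl i)) = (0 : Fin n → F) := by funext i; simp [hw']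
    have h8 : (fun i => w' (Sum.inr i)) = a := by funext i; simp [hw']
    rw [h7, h8, add_zero, hfy]
    have : a ⬝ᵥ y = 0 := by rw [ha, hy]; simp [hne]
    rw [this]
    simp
  have e2 : pi ψ (-w') f y = 1 := by
    rw [pi, wey_apply]
    have h7 : (fun i => (-w') (Sum.inl i)) = (0 : Fin n → F) := by funext i; simp [hw']
    have h8 : (fun i => (-w') (Sum.inr i)) = -a := by funext i; simp [hw']
    rw [h7, h8, add_zero, hfy]
    have : a ⬝ᵥ y = 0 := by rw [ha, hy]; simp [hne]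
    rw [neg_dotProduct, this]
    simp
  have e3 : pi ψ w f y = 0 := by
    rw [pi, wey_apply]
    have h7 : (fun i => w (Sum.inl i)) = a := by funext i; simp [hw]
    have := hf0 1 one_ne_zero
    rw [one_smul] at this
    rw [h7, this, mul_zero]
  have e4 : pi ψ (-w) f y = 0 := by
    rw [pi, wey_apply]
    have h7 : (fun i => (-w) (Sum.inl i)) = -a := by funext i; simp [hw]
    have := hf0 (-1) (by simp)
    rw [neg_one_smul] at this
    rw [h7, this, mul_zero]
  rw [Pi.add_apply, Pi.add_apply, e1, e2, e3, e4] at h6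
  norm_num at h6


/-- a non-trivial representation all of whose smaller sub/quotients are trivial is irreducible -/
theorem irr_of_min {G V : Type*} [Group G] [Finite G] [AddCommGroup V] [Module ℂ V] [FiniteDimensional ℂ V]
    (ρ : Representation ℂ G V) (hnt : ∃ g, ρ g ≠ 1)
    (hmin : ∀ (N : Submodule ℂ V) (σ : G →* Module.End ℂ N), finrank ℂ N < finrank ℂ V → ∀ g, σ g = 1)
    (hmin' : ∀ (N : Submodule ℂ V) (σ : G →* Module.End ℂ (V ⧸ N)), finrank ℂ (V ⧸ N) < finrank ℂ V → ∀ g, σ g = 1) :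
    ρ.IsIrreducible := by
  have hVnt : Nontrivial V := by
    by_contra hcon
    rw [not_nontrivial_iff_subsingleton] at hcon
    obtain ⟨g, hg⟩ := hnt
    exact hg (LinearMap.ext (fun v => Subsingleton.elim _ _))
  have hnt' : Nontrivial (Subrepresentation ρ) := by
    refine ⟨⊥, ⊤, ?_⟩
    intro h
    have : (⊥ : Submodule ℂ V) = ⊤ := congrArg Subrepresentation.toSubmodule h
    exact bot_ne_top this
  refine @IsSimpleOrder.mk _ _ _ hnt' ?_
  intro N
  by_contra hcon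
  push Not at hcon
  have hbot : N.toSubmodule ≠ ⊥ := by
    intro h
    exact hcon.1 (Subrepresentation.toSubmodule_injective h)
  have htop : N.toSubmodule ≠ ⊤ := by
    intro h
    exact hcon.2 (Subrepresentation.toSubmodule_injective h)
  have hN : ∀ g, ∀ v ∈ N.toSubmodule, ρ g v ∈ N.toSubmodule := fun g v hv => N.apply_mem_toSubmodule g hv
  let σ : G →* Module.End ℂ N.toSubmodule :=
    { toFun := fun g => (ρ g).restrict (hN g)
      map_one' := by
        apply LinearMap.ext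
        intro v
        apply Subtype.ext
        show ρ 1 v.1 = v.1
        rw [map_one]; rfl
      map_mul' := fun g h => by
        apply LinearMap.ext
        intro v
        apply Subtype.ext
        show ρ (g * h) v.1 = ρ g (ρ h v.1)
        rw [map_mul]; rfl }
  let τ : G →* Module.End ℂ (V ⧸ N.toSubmodule) :=
    { toFun := fun g => N.toSubmodule.mapQ N.toSubmodule (ρ g) (hN g)
      map_one' := by
        apply Submodule.linearMap_qext
        apply LinearMap.ext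
        intro v
        simp
      map_mul' := fun g h => by
        apply Submodule.linearMap_qext
        apply LinearMap.ext
        intro v
        simp }
  have h1 := hmin N.toSubmodule σ (Submodule.finrank_lt htop)
  have h2 := hmin' N.toSubmodule τ (by
    have h3 := Submodule.finrank_quotient_add_finrank N.toSubmodule
    have h4 : finrank ℂ N.toSubmodule ≠ 0 := fun h => hbot (Submodule.finrank_eq_zero.mp h)
    omega)
  obtain ⟨g, hg⟩ := hnt
  apply hg
  -- (ρ g - 1)^2 = 0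
  have h3 : ∀ v, (ρ g - 1) v ∈ N.toSubmodule := by
    intro v
    have h4 := congrArg (fun f : Module.End ℂ (V ⧸ N.toSubmodule) => f (Submodule.Quotient.mk v)) (h2 g)
    have h5 : (Submodule.Quotient.mk (ρ g v) : V ⧸ N.toSubmodule) = Submodule.Quotient.mk v := h4
    exact (Submodule.Quotient.eq _).mp h5
  have h4 : ∀ v ∈ N.toSubmodule, (ρ g - 1) v = 0 := by
    intro v hv
    have h5 := congrArg (fun f : Module.End ℂ N.toSubmodule => ((f ⟨v, hv⟩ : N.toSubmodule) : V)) (h1 g)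
    have h6 : ρ g v = v := h5
    rw [LinearMap.sub_apply, h6, Module.End.one_apply, sub_self]
  set X := ρ g - 1 with hX
  have hXX : X * X = 0 := by
    apply LinearMap.ext
    intro v
    rw [Module.End.mul_apply, h4 _ (h3 v)]
    rfl
  have hg1 : ρ g = 1 + X := by rw [hX]; abel
  have hpow : ∀ k : ℕ, (1 + X) ^ k = 1 + (k : ℂ) • X := by
    intro k
    induction k with
    | zero => simp
    | succ k ih =>
      rw [pow_succ, ih, add_mul, one_mul, mul_add, mul_one, smul_mul_assoc, hXX, smul_zero, add_zero]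
      push_cast
      rw [add_smul, one_smul]
      abel
  have h5 := hpow (orderOf g)
  rw [← hg1, ← map_pow, pow_orderOf_eq_one, map_one] at h5
  have h6 : (orderOf g : ℂ) • X = 0 := by
    have := h5.symm
    rwa [add_eq_left] at this
  have h7 : (orderOf g : ℂ) ≠ 0 := by
    exact_mod_cast (orderOf_pos g).ne'
  rw [hg1, (smul_eq_zero.mp h6).resolve_left h7, add_zero]

end Cfsg.Agent.H15.Weil
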