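import Mathlib
import Cfsg.Agent.H15_Sk
import Cfsg.Agent.H5_FrmAniso

set_option autoImplicit false
open Matrix Module

namespace Cfsg.Agent.H15.WtSU

open Cfsg.Agent.H15.Sk Cfsg.Agent.H5

variable {F : Type*} [Field F]

/-- selection matrix -/
def Pm {m n : ℕ} (f : Fin m → Fin n) : Matrix (Fin n) (Fin m) F := Matrix.of fun r i => if r = f i then 1 else 0

theorem cj_Pm_mul (σ : F →+* F) {m k n : ℕ} (f : Fin m → Fin n) (g : Fin k → Fin n) :
    cj σ (Pm f) * (Pm g : Matrix (Fin n) (Fin k) F) = Matrix.of fun i j => if f i = g j then 1 else 0 := by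
  ext i j
  rw [Matrix.mul_apply, Finset.sum_eq_single (f i)]
  · simp [cj, Pm]
  · intro r _ hr
    simp [cj, Pm, hr]
  · intro h; exact absurd (Finset.mem_univ _) h

/-- hyperbolic data: two totally isotropic frames in duality -/
structure Hyp (σ : F →+* F) {m n : ℕ} (E G : Matrix (Fin n) (Fin m) F) : Prop where
  inv : ∀ x, σ (σ x) = x
  EE : cj σ E * E = 0
  GG : cj σ G * G = 0
  GE : cj σ G * E = 1

variable {σ : F →+* F} {m n : ℕ} {E G : Matrix (Fin n) (Fin m) F}

theorem Hyp.EG (h : Hyp σ E G) : cj σ E * G = 1 := by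
  have h1 := congrArg (cj σ) h.GE
  rwa [cj_mul, cj_cj σ h.inv, cj_one] at h1

/-- the Levi element -/
theorem lev (h : Hyp σ E G) (M N : Matrix (Fin m) (Fin m) F) (hMN : M * N = 1) :
    ∃ X : Matrix (Fin n) (Fin n) F, cj σ X * X = 1 ∧ X * E = E * M ∧ X.det = M.det * σ N.det ∧
      (∀ (k : ℕ) (Z : Matrix (Fin n) (Fin k) F), cj σ E * Z = 0 → cj σ G * Z = 0 → X * Z = Z) := by
  have hNM : N * M = 1 := mul_eq_one_comm.mp hMN
  have hcMN : cj σ N * cj σ M = 1 := by rw [← cj_mul, hMN, cj_one]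
  have hcNM : cj σ M * cj σ N = 1 := by rw [← cj_mul, hNM, cj_one]
  have EE := h.EE
  have GG := h.GG
  have GE := h.GE
  have EG := h.EG
  refine ⟨1 + (E * (M - 1) * cj σ G + G * (cj σ N - 1) * cj σ E), ?_, ?_, ?_, ?_⟩
  · have e1 : cj σ (1 + (E * (M - 1) * cj σ G + G * (cj σ N - 1) * cj σ E)) =
        1 + (G * (cj σ M - 1) * cj σ E + E * (N - 1) * cj σ G) := by
      rw [cj_add, cj_one, cj_add, cj_mul, cj_mul, cj_mul, cj_mul, cj_cj σ h.inv, cj_cj σ h.inv, cj_sub, cj_sub, cj_one,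
        cj_cj σ h.inv, Matrix.mul_assoc, Matrix.mul_assoc]
    rw [e1, Matrix.add_mul, Matrix.one_mul, Matrix.mul_add (G * (cj σ M - 1) * cj σ E + E * (N - 1) * cj σ G),
      Matrix.mul_one, Matrix.add_mul, Matrix.mul_add, Matrix.mul_add]
    have p1 : G * (cj σ M - 1) * cj σ E * (E * (M - 1) * cj σ G) = 0 := by
      calc _ = G * (cj σ M - 1) * (cj σ E * E) * (M - 1) * cj σ G := by simp only [Matrix.mul_assoc]
        _ = 0 := by rw [EE]; simp
    have p2 : E * (N - 1) * cj σ G * (G * (cj σ N - 1) * cj σ E) = 0 := by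
      calc _ = E * (N - 1) * (cj σ G * G) * (cj σ N - 1) * cj σ E := by simp only [Matrix.mul_assoc]
        _ = 0 := by rw [GG]; simp
    have p3 : G * (cj σ M - 1) * cj σ E * (G * (cj σ N - 1) * cj σ E) = G * ((cj σ M - 1) * (cj σ N - 1)) * cj σ E := by
      calc _ = G * (cj σ M - 1) * (cj σ E * G) * (cj σ N - 1) * cj σ E := by simp only [Matrix.mul_assoc]
        _ = _ := by rw [EG, Matrix.mul_one]; simp only [Matrix.mul_assoc]
    have p4 : E * (N - 1) * cj σ G * (E * (M - 1) * cj σ G) = E * ((N - 1) * (M - 1)) * cj σ G := by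
      calc _ = E * (N - 1) * (cj σ G * E) * (M - 1) * cj σ G := by simp only [Matrix.mul_assoc]
        _ = _ := by rw [GE, Matrix.mul_one]; simp only [Matrix.mul_assoc]
    rw [p1, p2, p3, p4]
    have q1 : (cj σ M - 1) * (cj σ N - 1) = 1 + 1 - cj σ M - cj σ N := by
      rw [Matrix.sub_mul, Matrix.mul_sub, Matrix.mul_sub, hcNM]
      simp only [Matrix.mul_one, Matrix.one_mul]
      abel
    have q2 : (N - 1) * (M - 1) = 1 + 1 - M - N := by
      rw [Matrix.sub_mul, Matrix.mul_sub, Matrix.mul_sub, hNM]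
      simp only [Matrix.mul_one, Matrix.one_mul]
      abel
    rw [q1, q2]
    simp only [Matrix.mul_sub, Matrix.sub_mul, Matrix.mul_add, Matrix.add_mul, Matrix.mul_one]
    abel
  · rw [Matrix.add_mul, Matrix.one_mul, Matrix.add_mul, Matrix.mul_assoc _ _ E, GE, Matrix.mul_assoc _ _ E, EE]
    simp only [Matrix.mul_one, Matrix.mul_zero, Matrix.mul_sub, add_zero]
    abel
  · have e1 : E * (M - 1) * cj σ G + G * (cj σ N - 1) * cj σ E =
        Matrix.fromCols E G * ((Matrix.fromBlocks (M - 1) 0 0 (cj σ N - 1)) * Matrix.fromRows (cj σ G) (cj σ E)) := by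
      rw [Matrix.fromBlocks_mul_fromRows, Matrix.fromCols_mul_fromRows]
      simp only [Matrix.zero_mul, add_zero, zero_add, Matrix.mul_assoc]
    rw [e1, Matrix.det_one_add_mul_comm, Matrix.mul_assoc, Matrix.fromRows_mul_fromCols, GE, GG, EE, EG]
    have e2 : (1 : Matrix (Fin m ⊕ Fin m) (Fin m ⊕ Fin m) F) + Matrix.fromBlocks (M - 1) 0 0 (cj σ N - 1) *
        Matrix.fromBlocks 1 0 0 1 = Matrix.fromBlocks M 0 0 (cj σ N) := by
      rw [Matrix.fromBlocks_multiply, ← Matrix.fromBlocks_one, Matrix.fromBlocks_add]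
      simp
    rw [e2, Matrix.det_fromBlocks_zero₂₁, cj_det]
  · intro k Z h1 h2
    rw [Matrix.add_mul, Matrix.one_mul, Matrix.add_mul, Matrix.mul_assoc _ _ Z, h2, Matrix.mul_assoc _ _ Z, h1]
    simp


/-- the unipotent element -/
theorem uni (h : Hyp σ E G) (B : Matrix (Fin m) (Fin m) F) (hB : cj σ B = -B) :
    cj σ (1 + E * B * cj σ E) * (1 + E * B * cj σ E) = 1 ∧ (1 + E * B * cj σ E).det = 1 := by
  have EE := h.EE
  constructor
  · have e1 : cj σ (1 + E * B * cj σ E) = 1 - E * B * cj σ E := by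
      rw [cj_add, cj_one, cj_mul, cj_mul, cj_cj σ h.inv, hB, Matrix.neg_mul, Matrix.mul_neg, ← Matrix.mul_assoc,
        sub_eq_add_neg]
    have e2 : E * B * cj σ E * (E * B * cj σ E) = 0 := by
      calc _ = E * B * (cj σ E * E) * B * cj σ E := by simp only [Matrix.mul_assoc]
        _ = 0 := by rw [EE]; simp
    rw [e1, Matrix.sub_mul, Matrix.mul_add, Matrix.mul_add, e2]
    simp
  · rw [Matrix.mul_assoc, Matrix.det_one_add_mul_comm, Matrix.mul_assoc, EE]
    simp

variable [Fintype F] {q : ℕ}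

/-- elements of SU from matrix identities -/
def mkSU (hF : Fintype.card F = q ^ 2) {n : ℕ} (X : Matrix (Fin n) (Fin n) F) (h1 : cj (Fld.frob hF) X * X = 1)
    (h2 : X.det = 1) : Cfsg.SU n F q :=
  ⟨⟨X, h2⟩, Cfsg.Agent.H15.LawsCl.su_mem (Fld.frob hF) (Fld.frob_apply hF) ⟨X, h2⟩ (by
    have h3 := congrArg Matrix.transpose h1
    rw [Matrix.transpose_mul, Matrix.transpose_one] at h3
    exact h3)⟩

theorem mkSU_coe (hF : Fintype.card F = q ^ 2) {n : ℕ} (X : Matrix (Fin n) (Fin n) F) (h1 : cj (Fld.frob hF) X * X = 1)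
    (h2 : X.det = 1) : Unit.mat (mkSU hF X h1 h2) = X := rfl

theorem cj_mul_mat (hF : Fintype.card F = q ^ 2) {n : ℕ} (g : Cfsg.SU n F q) :
    cj (Fld.frob hF) (Unit.mat g) * Unit.mat g = 1 := by
  have h1 : ∀ i j, Cfsg.hermForm n F q (Unit.mat g *ᵥ Pi.single j 1) (Unit.mat g *ᵥ Pi.single i 1) =
      Cfsg.hermForm n F q (Pi.single j 1) (Pi.single i 1) := fun i j => Unit.SU_herm g _ _
  ext i j
  have h2 := h1 i j
  rw [Matrix.mulVec_single_one, Matrix.mulVec_single_one] at h2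
  rw [Matrix.mul_apply]
  have h3 : ∑ r, cj (Fld.frob hF) (Unit.mat g) i r * Unit.mat g r j =
      Cfsg.hermForm n F q ((Unit.mat g).col j) ((Unit.mat g).col i) := by
    rw [Cfsg.hermForm]
    apply Finset.sum_congr rfl
    intro r _
    simp only [cj, Matrix.transpose_apply, Matrix.map_apply, Fld.frob_apply, Matrix.col]
    ring
  rw [h3, h2, Cfsg.hermForm, Matrix.one_apply]
  have hq : q ≠ 0 := by have := Fld.one_lt_q hF; omega
  by_cases hij : i = j
  · subst hij
    rw [if_pos rfl, Finset.sum_eq_single i]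
    · simp
    · intro r _ hr; rw [Pi.single_eq_of_ne hr, zero_mul]
    · intro h; exact absurd (Finset.mem_univ _) h
  · rw [if_neg hij]
    apply Finset.sum_eq_zero
    intro r _
    by_cases hr : r = j
    · subst hr
      rw [Pi.single_eq_of_ne (Ne.symm hij), zero_pow hq, mul_zero]
    · rw [Pi.single_eq_of_ne hr, zero_mul]

/-- the unipotent radical elements -/
noncomputable def uu (hF : Fintype.card F = q ^ 2) {E G : Matrix (Fin n) (Fin m) F} (h : Hyp (Fld.frob hF) E G)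
    (B : Sk (Fld.frob hF) m) : Cfsg.SU n F q :=
  mkSU hF (1 + E * B.1 * cj (Fld.frob hF) E) (uni h B.1 B.2).1 (uni h B.1 B.2).2

theorem uu_add (hF : Fintype.card F = q ^ 2) {E G : Matrix (Fin n) (Fin m) F} (h : Hyp (Fld.frob hF) E G)
    (B C : Sk (Fld.frob hF) m) : uu hF h (B + C) = uu hF h B * uu hF h C := by
  apply Subtype.ext
  apply Subtype.ext
  show 1 + E * (B.1 + C.1) * cj (Fld.frob hF) E = (1 + E * B.1 * cj (Fld.frob hF) E) * (1 + E * C.1 * cj (Fld.frob hF) E)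
  have e2 : E * B.1 * cj (Fld.frob hF) E * (E * C.1 * cj (Fld.frob hF) E) = 0 := by
    calc _ = E * B.1 * (cj (Fld.frob hF) E * E) * C.1 * cj (Fld.frob hF) E := by simp only [Matrix.mul_assoc]
      _ = 0 := by rw [h.EE]; simp
  have e3 : E * (B.1 + C.1) * cj (Fld.frob hF) E = E * B.1 * cj (Fld.frob hF) E + E * C.1 * cj (Fld.frob hF) E := by
    rw [Matrix.mul_add, Matrix.add_mul]
  rw [e3, Matrix.add_mul, Matrix.mul_add, Matrix.mul_add, e2]
  simp only [Matrix.mul_one, Matrix.one_mul, add_zero]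
  abel

/-- conjugation by elements normalising the isotropic frame -/
theorem uu_conj (hF : Fintype.card F = q ^ 2) {E G : Matrix (Fin n) (Fin m) F} (h : Hyp (Fld.frob hF) E G)
    (g : Cfsg.SU n F q) (M N : Matrix (Fin m) (Fin m) F) (hMN : M * N = 1) (hg : Unit.mat g * E = E * N)
    (B : Sk (Fld.frob hF) m) : uu hF h B * g = g * uu hF h (al (Fld.frob_frob hF) M B) := by
  have hNM : N * M = 1 := mul_eq_one_comm.mp hMN
  have h1 := cj_mul_mat hF g
  have h2 : Unit.mat g * cj (Fld.frob hF) (Unit.mat g) = 1 := mul_eq_one_comm.mp h1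
  have h3 : cj (Fld.frob hF) (Unit.mat g) * E = E * M := by
    calc cj (Fld.frob hF) (Unit.mat g) * E = cj (Fld.frob hF) (Unit.mat g) * (E * N) * M := by
          rw [Matrix.mul_assoc, Matrix.mul_assoc E, hNM, Matrix.mul_one]
      _ = cj (Fld.frob hF) (Unit.mat g) * (Unit.mat g * E) * M := by rw [hg]
      _ = _ := by rw [← Matrix.mul_assoc (cj _ _), h1, Matrix.one_mul]
  have h4 : cj (Fld.frob hF) E * Unit.mat g = cj (Fld.frob hF) M * cj (Fld.frob hF) E := by
    have h5 := congrArg (cj (Fld.frob hF)) h3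
    rwa [cj_mul, cj_mul, cj_cj _ (Fld.frob_frob hF)] at h5
  apply Subtype.ext
  apply Subtype.ext
  show (1 + E * B.1 * cj (Fld.frob hF) E) * Unit.mat g =
    Unit.mat g * (1 + E * (M * B.1 * cj (Fld.frob hF) M) * cj (Fld.frob hF) E)
  rw [Matrix.add_mul, Matrix.one_mul, Matrix.mul_add, Matrix.mul_one, Matrix.mul_assoc _ _ (Unit.mat g), h4,
    ← Matrix.mul_assoc (Unit.mat g), ← Matrix.mul_assoc (Unit.mat g), hg]
  congr 1
  calc E * B.1 * (cj (Fld.frob hF) M * cj (Fld.frob hF) E) = E * (1 * B.1) * cj (Fld.frob hF) M * cj (Fld.frob hF) E := by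
        simp only [Matrix.mul_assoc, Matrix.one_mul]
    _ = E * N * (M * B.1 * cj (Fld.frob hF) M) * cj (Fld.frob hF) E := by
        rw [← hNM]; simp only [Matrix.mul_assoc]


/-- existence of the Levi elements -/
theorem exists_lev (hF : Fintype.card F = q ^ 2) {E G : Matrix (Fin n) (Fin m) F} (h : Hyp (Fld.frob hF) E G)
    (M : Matrix (Fin m) (Fin m) F) (hM : M.det ≠ 0)
    (hd : ∃ R : Matrix (Fin n) (Fin n) F, cj (Fld.frob hF) R * R = 1 ∧ R * E = E ∧ R.det * Fld.frob hF M.det = M.det) :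
    ∃ g : Cfsg.SU n F q, ∀ B, uu hF h B * g = g * uu hF h (al (Fld.frob_frob hF) M B) := by
  obtain ⟨R, hR1, hR2, hR3⟩ := hd
  have hu : IsUnit M.det := isUnit_iff_ne_zero.mpr hM
  have hMN : M * M⁻¹ = 1 := Matrix.mul_nonsing_inv _ hu
  have hNM : M⁻¹ * M = 1 := Matrix.nonsing_inv_mul _ hu
  obtain ⟨X, hX1, hX2, hX3, _⟩ := lev h M⁻¹ M hNM
  have hσM : Fld.frob hF M.det ≠ 0 := by simpa using hM
  have hdet : (R * X).det = 1 := by
    rw [Matrix.det_mul, hX3, Matrix.det_nonsing_inv, Ring.inverse_eq_inv']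
    field_simp
    linear_combination hR3
  refine ⟨mkSU hF (R * X) ?_ hdet, fun B => uu_conj hF h _ M M⁻¹ hMN ?_ B⟩
  · rw [cj_mul]
    calc cj (Fld.frob hF) X * cj (Fld.frob hF) R * (R * X) = cj (Fld.frob hF) X * (cj (Fld.frob hF) R * R) * X := by
          simp only [Matrix.mul_assoc]
      _ = 1 := by rw [hR1, Matrix.mul_one, hX1]
  · rw [mkSU_coe, Matrix.mul_assoc, hX2, ← Matrix.mul_assoc, hR2]

/-- frames -/
theorem exists_Hyp (hF : Fintype.card F = q ^ 2) (hmn : 2 * m ≤ n) : ∃ E G : Matrix (Fin n) (Fin m) F,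
    Hyp (Fld.frob hF) E G ∧ (∀ r : Fin n, 2 * m ≤ r.val → ∀ i, E r i = 0 ∧ G r i = 0) := by
  obtain ⟨_, σ, hσ, hσ2, _, ⟨a, a', haa, ha, ha'⟩, _⟩ := Cfsg.Agent.H15.LawsCl.field_sq hF
  have hσσ : ∀ x, σ x = Fld.frob hF x := fun x => by rw [hσ, Fld.frob_apply]
  rw [hσσ] at ha ha'
  set f : Fin m → Fin n := fun i => ⟨i.val, by omega⟩ with hf
  set g : Fin m → Fin n := fun i => ⟨m + i.val, by omega⟩ with hg
  have hff : cj (Fld.frob hF) (Pm f) * (Pm f : Matrix (Fin n) (Fin m) F) = 1 := by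
    rw [cj_Pm_mul]; ext i j
    rw [Matrix.of_apply, Matrix.one_apply]
    congr 1
    rw [hf, Fin.mk.injEq, ← Fin.ext_iff]
  have hgg : cj (Fld.frob hF) (Pm g) * (Pm g : Matrix (Fin n) (Fin m) F) = 1 := by
    rw [cj_Pm_mul]; ext i j
    rw [Matrix.of_apply, Matrix.one_apply]
    congr 1
    rw [hg, Fin.mk.injEq, Nat.add_left_cancel_iff, ← Fin.ext_iff]
  have hfg : cj (Fld.frob hF) (Pm f) * (Pm g : Matrix (Fin n) (Fin m) F) = 0 := by
    rw [cj_Pm_mul]; ext i j
    rw [Matrix.of_apply, if_neg, Matrix.zero_apply]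
    rw [hf, hg, Fin.mk.injEq]
    omega
  have hgf : cj (Fld.frob hF) (Pm g) * (Pm f : Matrix (Fin n) (Fin m) F) = 0 := by
    rw [cj_Pm_mul]; ext i j
    rw [Matrix.of_apply, if_neg, Matrix.zero_apply]
    rw [hf, hg, Fin.mk.injEq]
    omega
  have hgen : ∀ c d e : F, cj (Fld.frob hF) (Pm f + c • (Pm g : Matrix (Fin n) (Fin m) F)) *
      (e • (Pm f + d • (Pm g : Matrix (Fin n) (Fin m) F))) = (e * (1 + Fld.frob hF c * d)) • 1 := by
    intro c d e
    rw [cj_add, cj_smul, Matrix.mul_smul, Matrix.add_mul, Matrix.mul_add, Matrix.mul_add, hff, Matrix.smul_mul,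
      Matrix.smul_mul, Matrix.mul_smul, Matrix.mul_smul, hfg, hgf, hgg, smul_zero, smul_zero, add_zero, zero_add]
    module
  have hc : 1 + Fld.frob hF a' * a ≠ 0 := by
    intro h0
    have h1 : (a - a') * Fld.frob hF a' = 0 := by linear_combination h0 - ha'
    rcases mul_eq_zero.mp h1 with h2 | h2
    · exact haa (sub_eq_zero.mp h2)
    · rw [h2, mul_zero] at ha'
      exact one_ne_zero (neg_eq_zero.mp ha'.symm)
  obtain ⟨γ, hγ⟩ : ∃ γ : F, Fld.frob hF γ * (1 + Fld.frob hF a' * a) = 1 := by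
    refine ⟨Fld.frob hF ((1 + Fld.frob hF a' * a)⁻¹), ?_⟩
    rw [Fld.frob_frob, inv_mul_cancel₀ hc]
  refine ⟨Pm f + a • Pm g, γ • (Pm f + a' • Pm g), ⟨Fld.frob_frob hF, ?_, ?_, ?_⟩, ?_⟩
  · have h1 := hgen a a 1
    rw [one_smul, one_mul] at h1
    rw [h1]
    have : (1 : F) + Fld.frob hF a * a = 0 := by linear_combination ha
    rw [this, zero_smul]
  · rw [cj_smul, Matrix.smul_mul, hgen]
    have : (1 : F) + Fld.frob hF a' * a' = 0 := by linear_combination ha'
    rw [this, mul_zero, zero_smul, smul_zero]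
  · rw [cj_smul, Matrix.smul_mul]
    have h1 := hgen a' a 1
    rw [one_smul, one_mul] at h1
    rw [h1, smul_smul, hγ, one_smul]
  · intro r hr i
    have h1 : r ≠ f i := by
      intro h0
      have := congrArg Fin.val h0
      simp only [hf] at this
      omega
    have h2 : r ≠ g i := by
      intro h0
      have := congrArg Fin.val h0
      simp only [hg] at this
      omega
    constructor <;> simp [Pm, h1, h2]


section iso

open Cfsg.Agent.H15.UGen

variable {K W : Type*} [Field K] [AddCommGroup W] [Module K W] {τ : K →+* K} {H : W → W → K}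

theorem rel_iso₁ (h : HS τ H) (hK : ∃ c : K, c ≠ 0 ∧ c + τ c = 0) {v w : W} (hv : H v v = 0) (hw : H w w = 0)
    (hvw : H v w ≠ 0) : rel τ H v w := by
  obtain ⟨c, hc0, hc⟩ := hK
  obtain ⟨y, hy⟩ : ∃ y, y = (τ (H v w))⁻¹ • w := ⟨_, rfl⟩
  have hτ : τ (H v w) ≠ 0 := by simpa using hvw
  have hvy : H v y = 1 := by
    rw [hy, h.sr, map_inv₀, h.inv, inv_mul_cancel₀ hvw]
  have hyv : H y v = 1 := by rw [← h.sw, hvy, map_one]
  have hyy : H y y = 0 := by rw [hy, h.sl, h.sr, hw]; ring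
  obtain ⟨n1, hn1, hn1a⟩ := exists_T h y c hyy hc
  obtain ⟨n2, hn2, hn2a⟩ := exists_T h v (-1 / c) hv (by
    have hτc : τ c = -c := by linear_combination hc
    rw [map_div₀, hτc, map_neg, map_one]
    field_simp
    ring)
  refine ⟨n2 * n1, mul_mem hn2 hn1, c * (τ (H v w))⁻¹, mul_ne_zero hc0 (inv_ne_zero hτ), ?_⟩
  show n2 (n1 v) = _
  rw [hn1a, hvy, hn2a, h.al, h.sl, hv, hyv, mul_smul c _ w, ← hy]
  have : (-1 / c) * (0 + c * 1 * 1) = -1 := by field_simp; ring
  rw [this]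
  module

theorem rel_iso (h : HS τ H) (hK : ∃ c : K, c ≠ 0 ∧ c + τ c = 0) (hT : ∀ a : K, τ a = a → ∃ l : K, l + τ l = a)
    {v w : W} (hv : H v v = 0) (hw : H w w = 0) (hv0 : v ≠ 0) (hw0 : w ≠ 0) : rel τ H v w := by
  by_cases hvw : H v w = 0
  · have hex : ∀ v, v ≠ 0 → ∃ z, H v z ≠ 0 := by
      intro v hv
      by_contra hcon
      push Not at hcon
      exact hv (h.nd v (fun x => by rw [← h.sw, hcon, map_zero]))
    obtain ⟨z₀, hz1, hz2⟩ : ∃ z₀, H v z₀ ≠ 0 ∧ H w z₀ ≠ 0 := by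
      obtain ⟨a, ha⟩ := hex v hv0
      obtain ⟨b, hb⟩ := hex w hw0
      by_cases h1 : H w a = 0
      · by_cases h2 : H v b = 0
        · exact ⟨a + b, by rw [h.ar, h2, add_zero]; exact ha, by rw [h.ar, h1, zero_add]; exact hb⟩
        · exact ⟨b, h2, hb⟩
      · exact ⟨a, ha, h1⟩
    have hwv : H w v = 0 := by rw [← h.sw, hvw, map_zero]
    obtain ⟨l, hl⟩ := hT (-(H z₀ z₀)) (by rw [map_neg, h.sw])
    obtain ⟨z, hz⟩ : ∃ z, z = z₀ + (l / H v z₀) • v := ⟨_, rfl⟩
    have hvz : H v z ≠ 0 := by rw [hz, h.ar, h.sr, hv, mul_zero, add_zero]; exact hz1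
    have hwz : H w z ≠ 0 := by rw [hz, h.ar, h.sr, hwv, mul_zero, add_zero]; exact hz2
    have hzw : H z w ≠ 0 := by
      intro h0
      apply hwz
      rw [← h.sw, h0, map_zero]
    have hτ : τ (H v z₀) ≠ 0 := by simpa using hz1
    have hzz : H z z = 0 := by
      rw [hz, h.al, h.ar, h.ar, h.sl, h.sl, h.sr, h.sr, hv, map_div₀, ← h.sw v z₀]
      field_simp
      linear_combination (τ (H v z₀) * H v z₀) * hl
    exact rel_trans (rel_iso₁ h hK hv hzz hvz) (rel_iso₁ h hK hzz hw hzw)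
  · exact rel_iso₁ h hK hv hw hvw

end iso

open Cfsg.Agent.H15.UGen in
theorem eq_one_of_uu (hF : Fintype.card F = q ^ 2) (hn : 3 ≤ n) (h32 : ¬ (n = 3 ∧ q = 2)) (hm : 1 ≤ m)
    {E G : Matrix (Fin n) (Fin m) F} (h : Hyp (Fld.frob hF) E G) {M : Type*} [Monoid M] (r : Cfsg.SU n F q →* M)
    (hr : ∀ B, r (uu hF h B) = 1) (g : Cfsg.SU n F q) : r g = 1 := by
  have hss := UGen.hs hF n
  set x₀ : Fin m → F := Pi.single ⟨0, hm⟩ 1 with hx₀
  set e : Fin n → F := E *ᵥ x₀ with he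
  have he0 : e ≠ 0 := by
    intro h0
    have h1 : cj (Fld.frob hF) G *ᵥ e = 0 := by rw [h0, Matrix.mulVec_zero]
    rw [he, Matrix.mulVec_mulVec, h.GE, Matrix.one_mulVec] at h1
    simp [hx₀] at h1
  have hform : ∀ x y : Fin n → F, Cfsg.hermForm n F q x y = x ⬝ᵥ (fun i => Fld.frob hF (y i)) := by
    intro x y
    simp only [Cfsg.hermForm, dotProduct, Fld.frob_apply]
  have hfr : (fun i => Fld.frob hF (e i)) = (fun i => Fld.frob hF (x₀ i)) ᵥ* cj (Fld.frob hF) E := by
    ext i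
    simp only [he, Matrix.mulVec, dotProduct, map_sum, map_mul, Matrix.vecMul, cj, Matrix.transpose_apply, Matrix.map_apply]
    exact Finset.sum_congr rfl (fun j _ => mul_comm _ _)
  have hee : Cfsg.hermForm n F q e e = 0 := by
    rw [hform, hfr, dotProduct_comm, ← Matrix.dotProduct_mulVec, he, Matrix.mulVec_mulVec, h.EE, Matrix.zero_mulVec,
      dotProduct_zero]
  have hTe : ∀ c (hc : c + c ^ q = 0), r (Unit.T hF e hee c hc) = 1 := by
    intro c hc
    have hB : c • vv (Fld.frob hF) x₀ x₀ ∈ Sk (Fld.frob hF) m := by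
      rw [mem_Sk, cj_smul, cj_vv _ (Fld.frob_frob hF), ← neg_smul]
      congr 1
      rw [Fld.frob_apply]
      linear_combination hc
    have h1 : Unit.T hF e hee c hc = uu hF h ⟨_, hB⟩ := by
      apply Subtype.ext
      apply Subtype.ext
      show Cfsg.unitaryTransvection n q e c = 1 + E * (c • vv (Fld.frob hF) x₀ x₀) * cj (Fld.frob hF) E
      rw [Cfsg.unitaryTransvection, Matrix.mul_smul, Matrix.smul_mul, vv, Matrix.mul_vecMulVec, Matrix.vecMulVec_mul, ← hfr]
      simp only [Fld.frob_apply]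
      rfl
    rw [h1, hr]
  have hK : ∃ c : F, c ≠ 0 ∧ c + Fld.frob hF c = 0 := by
    obtain ⟨c, hc, hc2⟩ := Unit.exists_ker_ne hF
    exact ⟨c, hc, by rw [Fld.frob_apply]; exact hc2⟩
  have hNle : N (Fld.frob hF) (Cfsg.hermForm n F q) ≤ (⊤ : Subgroup (Cfsg.SU n F q)).map (act n F q) := by
    rw [N, Subgroup.closure_le]
    rintro g ⟨v, c, hv, hc, hg⟩
    refine ⟨Unit.T hF v hv c (by rw [← Fld.frob_apply hF]; exact hc), trivial, ?_⟩
    apply LinearEquiv.ext
    intro x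
    rw [act_apply, Unit.T_apply, hg]
  have htop := su_gen hF n hn h32
  have hle : (⊤ : Subgroup (Cfsg.SU n F q)) ≤ r.ker := by
    rw [← htop, Subgroup.closure_le]
    rintro A ⟨v, c, hv, hA⟩
    by_cases hv0 : v = 0
    · have h1 : A = 1 := by
        apply Unit.SU_ext
        intro x
        show ((A : Matrix.SpecialLinearGroup (Fin n) F) : Matrix (Fin n) (Fin n) F) *ᵥ x = (1 : Matrix (Fin n) (Fin n) F) *ᵥ x
        rw [hA, Unit.T_mulVec, hv0, smul_zero, add_zero, Matrix.one_mulVec]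
      rw [h1]
      exact one_mem _
    · have hc : c + c ^ q = 0 := by
        rw [← Unit.T_isometry_iff hF v hv0 hv c]
        intro x y
        rw [← hA]
        exact Unit.SU_herm A x y
      obtain ⟨n', hn', l, hl, hl2⟩ := rel_iso hss hK (exists_trace hF) hee hv he0 hv0
      obtain ⟨B, _, hB⟩ := hNle hn'
      have hBe : Unit.mat B *ᵥ e = l • v := by rw [← act_apply, hB, hl2]
      have hσl : Fld.frob hF l ≠ 0 := by simpa using hl
      have hc' : c / (l * Fld.frob hF l) + (c / (l * Fld.frob hF l)) ^ q = 0 := by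
        rw [← Fld.frob_apply hF, map_div₀, map_mul, Fld.frob_frob, mul_comm (Fld.frob hF l), ← add_div, Fld.frob_apply hF c, hc,
          zero_div]
      have h1 := Unit.conj_T hF B e hee _ hc'
      have h2 : A = Unit.T hF (Unit.mat B *ᵥ e) (by rw [Unit.SU_herm, hee]) _ hc' := by
        apply Unit.SU_ext
        intro x
        rw [Unit.T_apply, hBe]
        show ((A : Matrix.SpecialLinearGroup (Fin n) F) : Matrix (Fin n) (Fin n) F) *ᵥ x = _
        rw [hA, Unit.T_mulVec, Unit.herm_smul_right, ← Fld.frob_apply hF, smul_smul]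
        congr 2
        field_simp
      rw [h2, ← h1]
      exact (MonoidHom.normal_ker r).conj_mem _ (MonoidHom.mem_ker.mpr (hTe _ _)) B
  exact MonoidHom.mem_ker.mp (hle (Subgroup.mem_top g))


theorem card_F₀ (hF : Fintype.card F = q ^ 2) [Fintype (F₀ (Fld.frob hF))] : Fintype.card (F₀ (Fld.frob hF)) = q := by
  rw [← Nat.card_eq_fintype_card]
  have h1 := Cfsg.Agent.H5.Frm.card_fixed_frob hF
  refine Eq.trans ?_ h1
  apply Nat.card_congr
  exact Equiv.subtypeEquivRight (fun x => by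
    show Fld.frob hF x = x ↔ _
    rw [Fld.frob_apply])

open Classical in
theorem card_norm_one_le (hF : Fintype.card F = q ^ 2) :
    (Finset.univ.filter (fun ζ : F => ζ * Fld.frob hF ζ = 1)).card ≤ q + 1 := by
  have h1 := Fld.card_norm_fiber hF 1 one_ne_zero (one_pow q)
  rw [← h1, Nat.card_eq_fintype_card, Fintype.card_subtype]
  apply Finset.card_le_card
  intro ζ hζ
  rw [Finset.mem_filter] at hζ ⊢
  refine ⟨Finset.mem_univ _, ?_⟩
  rw [pow_succ', ← Fld.frob_apply hF]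
  exact hζ.2

theorem exists_Dat (hF : Fintype.card F = q ^ 2) : ∃ κ, Dat (Fld.frob hF) κ := by
  obtain ⟨c, hc, hc2⟩ := Unit.exists_ker_ne hF
  exact ⟨c, Fld.frob_frob hF, hc, by rw [Fld.frob_apply]; linear_combination hc2⟩

theorem ringChar_F₀ (σ : F →+* F) : ringChar (F₀ σ) = ringChar F := by
  have : CharP (F₀ σ) (ringChar F) := by
    haveI := ringChar.charP F
    exact (algebraMap (F₀ σ) F).charP (algebraMap (F₀ σ) F).injective (ringChar F)
  exact ringChar.eq (F₀ σ) (ringChar F)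

/-- even dimensional unitary groups -/
theorem su_even (hF : Fintype.card F = q ^ 2) {k : ℕ} (hk : 1 ≤ k) (hn : n = 2 * (k + 1)) {K V : Type*} [Field K]
    [IsAlgClosed K] [AddCommGroup V] [Module K V] [FiniteDimensional K V] (hK : ringChar K ≠ ringChar F)
    (r : Cfsg.SU n F q →* Module.End K V) (hr : ∃ g, r g ≠ 1) : q ^ n - 1 ≤ (q + 1) * finrank K V := by
  classical
  obtain ⟨E, G, h, _⟩ := exists_Hyp (m := k + 1) (n := n) hF (by omega)
  obtain ⟨κ, D⟩ := exists_Dat hF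
  have hss := UGen.hs hF n
  have hne : ∃ x, Fld.frob hF x ≠ x := hss.ne
  haveI : Finite F := Finite.of_fintype F
  obtain ⟨φ, hφ, hb⟩ := Wt.main_bound_fin (r := r) (F := F₀ (Fld.frob hF)) (u := uu hF h)
    (by rw [ringChar_F₀]; exact hK) (uu_add hF h) (by
      by_contra hcon
      push Not at hcon
      obtain ⟨g, hg⟩ := hr
      exact hg (eq_one_of_uu hF (by omega) (by omega) (by omega) h r hcon g))
  have h1 := sk_orbit D hne (UGen.exists_norm hF) hF (card_F₀ hF) (card_norm_one_le hF) hk φ hφ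
  rw [hn]
  refine h1.trans (Nat.mul_le_mul_left _ (hb _ ?_))
  intro φ' hφ'
  obtain ⟨M, hM, hMσ, rfl⟩ := (mem_Os D).mp hφ'
  obtain ⟨g, hg⟩ := exists_lev hF h M hM ⟨1, by rw [cj_one, Matrix.one_mul], by rw [Matrix.one_mul], by
    rw [Matrix.det_one, one_mul, hMσ]⟩
  exact ⟨g, al (Fld.frob_frob hF) M, hg, fun x => rfl⟩

end Cfsg.Agent.H15.WtSU
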