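import Mathlib
import Cfsg.Agent.H15_WtSU
import Cfsg.Agent.H15_Wt2

set_option autoImplicit false
open Matrix Module

namespace Cfsg.Agent.H15.WtSUo

open Cfsg.Agent.H15.Sk Cfsg.Agent.H5 Cfsg.Agent.H15.WtSU

variable {F : Type*} [Field F] {σ : F →+* F} {m n : ℕ} {E G : Matrix (Fin n) (Fin m) F}

/-- a unit vector orthogonal to the frames -/
structure Uv (σ : F →+* F) {m n : ℕ} (E G : Matrix (Fin n) (Fin m) F) (w : Matrix (Fin n) (Fin 1) F) : Prop where
  ww : cj σ w * w = 1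
  Ew : cj σ E * w = 0
  Gw : cj σ G * w = 0

/-- Heisenberg matrices -/
def heis (σ : F →+* F) (E : Matrix (Fin n) (Fin m) F) (w : Matrix (Fin n) (Fin 1) F) (A : Matrix (Fin m) (Fin 1) F)
    (B : Matrix (Fin m) (Fin m) F) : Matrix (Fin n) (Fin n) F :=
  1 + (E * A * cj σ w - w * cj σ A * cj σ E + E * B * cj σ E)

theorem heis_mul (h : Hyp σ E G) {w : Matrix (Fin n) (Fin 1) F} (hw : Uv σ E G w) (A A' : Matrix (Fin m) (Fin 1) F)
    (B B' : Matrix (Fin m) (Fin m) F) :
    heis σ E w A B * heis σ E w A' B' = heis σ E w (A + A') (B + B' - A * cj σ A') := by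
  have EE := h.EE
  have ww := hw.ww
  have Ew := hw.Ew
  have wE : cj σ w * E = 0 := by
    have h1 := congrArg (cj σ) Ew
    rw [cj_mul, cj_cj σ h.inv] at h1
    rw [h1]; ext i j; simp [cj]
  have a1 : ∀ {k l : ℕ} (Z : Matrix (Fin k) (Fin m) F) (Y : Matrix (Fin m) (Fin l) F), Z * cj σ E * (E * Y) = 0 := by
    intro k l Z Y
    calc _ = Z * (cj σ E * E) * Y := by simp only [Matrix.mul_assoc]
      _ = 0 := by rw [EE]; simp
  have a2 : ∀ {k l : ℕ} (Z : Matrix (Fin k) (Fin m) F) (Y : Matrix (Fin 1) (Fin l) F), Z * cj σ E * (w * Y) = 0 := by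
    intro k l Z Y
    calc _ = Z * (cj σ E * w) * Y := by simp only [Matrix.mul_assoc]
      _ = 0 := by rw [Ew]; simp
  have a3 : ∀ {k l : ℕ} (Z : Matrix (Fin k) (Fin 1) F) (Y : Matrix (Fin m) (Fin l) F), Z * cj σ w * (E * Y) = 0 := by
    intro k l Z Y
    calc _ = Z * (cj σ w * E) * Y := by simp only [Matrix.mul_assoc]
      _ = 0 := by rw [wE]; simp
  have a4 : ∀ {k l : ℕ} (Z : Matrix (Fin k) (Fin 1) F) (Y : Matrix (Fin 1) (Fin l) F), Z * cj σ w * (w * Y) = Z * Y := by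
    intro k l Z Y
    calc _ = Z * (cj σ w * w) * Y := by simp only [Matrix.mul_assoc]
      _ = Z * Y := by rw [ww, Matrix.mul_one]
  have key : (E * A * cj σ w - w * cj σ A * cj σ E + E * B * cj σ E) *
      (E * A' * cj σ w - w * cj σ A' * cj σ E + E * B' * cj σ E) = -(E * (A * cj σ A') * cj σ E) := by
    rw [Matrix.mul_assoc E A' , Matrix.mul_assoc w (cj σ A'), Matrix.mul_assoc E B']
    simp only [Matrix.add_mul, Matrix.sub_mul, Matrix.mul_add, Matrix.mul_sub, a1, a2, a3, a4]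
    simp only [sub_zero, add_zero, zero_sub, Matrix.mul_assoc]
  rw [heis, heis, heis, Matrix.add_mul, Matrix.one_mul, Matrix.mul_add, Matrix.mul_one, key, cj_add]
  simp only [Matrix.add_mul, Matrix.sub_mul, Matrix.mul_add, Matrix.mul_sub]
  abel

theorem cj_heis (hσ : ∀ x, σ (σ x) = x) {w : Matrix (Fin n) (Fin 1) F} (A : Matrix (Fin m) (Fin 1) F)
    (B : Matrix (Fin m) (Fin m) F) : cj σ (heis σ E w A B) = heis σ E w (-A) (cj σ B) := by
  rw [heis, heis, cj_add, cj_add, cj_sub, cj_one, cj_mul, cj_mul, cj_mul, cj_mul, cj_mul, cj_mul, cj_cj σ hσ, cj_cj σ hσ,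
    cj_cj σ hσ, cj_neg]
  simp only [Matrix.mul_neg, Matrix.neg_mul, Matrix.mul_assoc]
  abel

theorem heis_zero {w : Matrix (Fin n) (Fin 1) F} : heis σ E w 0 0 = 1 := by
  have : cj σ (0 : Matrix (Fin m) (Fin 1) F) = 0 := by ext i j; simp [cj]
  rw [heis, this]
  simp

theorem heis_unit (h : Hyp σ E G) {w : Matrix (Fin n) (Fin 1) F} (hw : Uv σ E G w) (A : Matrix (Fin m) (Fin 1) F)
    (B : Matrix (Fin m) (Fin m) F) (hB : B + cj σ B = -(A * cj σ A)) :
    cj σ (heis σ E w A B) * heis σ E w A B = 1 := by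
  have h2 : cj σ B + B - -A * cj σ A = 0 := by
    rw [add_comm, hB, Matrix.neg_mul]
    abel
  rw [cj_heis h.inv, heis_mul h hw, neg_add_cancel, h2, heis_zero]

theorem heis_det (h : Hyp σ E G) {w : Matrix (Fin n) (Fin 1) F} (hw : Uv σ E G w) (A : Matrix (Fin m) (Fin 1) F)
    (B : Matrix (Fin m) (Fin m) F) : (heis σ E w A B).det = 1 := by
  have EE := h.EE
  have ww := hw.ww
  have Ew := hw.Ew
  have wE : cj σ w * E = 0 := by
    have h1 := congrArg (cj σ) Ew
    rw [cj_mul, cj_cj σ h.inv] at h1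
    rw [h1]; ext i j; simp [cj]
  have e1 : E * A * cj σ w - w * cj σ A * cj σ E + E * B * cj σ E =
      Matrix.fromCols E w * ((Matrix.fromBlocks B A (-cj σ A) 0) * Matrix.fromRows (cj σ E) (cj σ w)) := by
    rw [Matrix.fromBlocks_mul_fromRows, Matrix.fromCols_mul_fromRows]
    simp only [Matrix.zero_mul, add_zero, Matrix.mul_assoc, Matrix.mul_add, Matrix.neg_mul, Matrix.mul_neg]
    abel
  rw [heis, e1, Matrix.det_one_add_mul_comm, Matrix.mul_assoc, Matrix.fromRows_mul_fromCols, EE, Ew, wE, ww]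
  have e2 : (1 : Matrix (Fin m ⊕ Fin 1) (Fin m ⊕ Fin 1) F) + Matrix.fromBlocks B A (-cj σ A) 0 *
      Matrix.fromBlocks 0 0 0 1 = Matrix.fromBlocks 1 A 0 1 := by
    rw [Matrix.fromBlocks_multiply, ← Matrix.fromBlocks_one, Matrix.fromBlocks_add]
    simp
  rw [e2, Matrix.det_fromBlocks_zero₂₁]
  simp

/-- column -/
def col (v : Fin m → F) : Matrix (Fin m) (Fin 1) F := Matrix.of fun i _ => v i

theorem col_mul (v v' : Fin m → F) : col v * cj σ (col v') = vv σ v v' := by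
  ext i j
  rw [Matrix.mul_apply, Fin.sum_univ_one, vv_apply]
  rfl

/-- the reflection -/
theorem refl_exists (h : Hyp σ E G) {w : Matrix (Fin n) (Fin 1) F} (hw : Uv σ E G w) (t : F) (ht : t * σ t = 1) :
    ∃ R : Matrix (Fin n) (Fin n) F, cj σ R * R = 1 ∧ R * E = E ∧ R.det = t := by
  have ww := hw.ww
  have Ew := hw.Ew
  have wE : cj σ w * E = 0 := by
    have h1 := congrArg (cj σ) Ew
    rw [cj_mul, cj_cj σ h.inv] at h1
    rw [h1]; ext i j; simp [cj]
  refine ⟨1 + (t - 1) • (w * cj σ w), ?_, ?_, ?_⟩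
  · have e1 : w * cj σ w * (w * cj σ w) = w * cj σ w := by
      calc _ = w * (cj σ w * w) * cj σ w := by simp only [Matrix.mul_assoc]
        _ = _ := by rw [ww, Matrix.mul_one]
    rw [cj_add, cj_one, cj_smul, cj_mul, cj_cj σ h.inv, Matrix.add_mul, Matrix.one_mul, Matrix.mul_add, Matrix.mul_one,
      Matrix.smul_mul, Matrix.mul_smul, e1, map_sub, map_one]
    have : (1 + (t - 1) • (w * cj σ w) + ((σ t - 1) • (w * cj σ w) + (σ t - 1) • (t - 1) • (w * cj σ w))) =
      1 + (t * σ t - 1) • (w * cj σ w) := by module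
    rw [this, ht, sub_self, zero_smul, add_zero]
  · rw [Matrix.add_mul, Matrix.one_mul, Matrix.smul_mul, Matrix.mul_assoc, wE, Matrix.mul_zero, smul_zero, add_zero]
  · rw [← Matrix.mul_smul, Matrix.det_one_add_mul_comm, Matrix.smul_mul, ww, Matrix.det_unique]
    simp

theorem exists_Uv (hσ : ∀ x, σ (σ x) = x) (hn : n = 2 * m + 1) (hz : ∀ r : Fin n, 2 * m ≤ r.val → ∀ i, E r i = 0 ∧ G r i = 0) :
    ∃ w, Uv σ E G w := by
  set i₀ : Fin n := ⟨2 * m, by omega⟩ with hi₀
  refine ⟨Pm (fun _ : Fin 1 => i₀), ?_, ?_, ?_⟩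
  · rw [cj_Pm_mul]
    ext i j
    rw [Matrix.of_apply, if_pos rfl, Subsingleton.elim i j, Matrix.one_apply_eq]
  · ext i j
    rw [Matrix.mul_apply, Matrix.zero_apply]
    apply Finset.sum_eq_zero
    intro r _
    by_cases hr : r = i₀
    · subst hr
      have : cj σ E i i₀ = 0 := by
        rw [cj, Matrix.transpose_apply, Matrix.map_apply, (hz i₀ (by rw [hi₀]) i).1, map_zero]
      rw [this, zero_mul]
    · simp [Pm, hr]
  · ext i j
    rw [Matrix.mul_apply, Matrix.zero_apply]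
    apply Finset.sum_eq_zero
    intro r _
    by_cases hr : r = i₀
    · subst hr
      have : cj σ G i i₀ = 0 := by
        rw [cj, Matrix.transpose_apply, Matrix.map_apply, (hz i₀ (by rw [hi₀]) i).2, map_zero]
      rw [this, zero_mul]
    · simp [Pm, hr]

variable [Fintype F] {q : ℕ}

/-- Heisenberg elements of SU -/
noncomputable def X (hF : Fintype.card F = q ^ 2) {E G : Matrix (Fin n) (Fin m) F} (h : Hyp (Fld.frob hF) E G)
    {w : Matrix (Fin n) (Fin 1) F} (hw : Uv (Fld.frob hF) E G w) (A : Matrix (Fin m) (Fin 1) F)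
    (B : Matrix (Fin m) (Fin m) F) (hB : B + cj (Fld.frob hF) B = -(A * cj (Fld.frob hF) A)) : Cfsg.SU n F q :=
  mkSU hF (heis (Fld.frob hF) E w A B) (heis_unit h hw A B hB) (heis_det h hw A B)

theorem uu_heis (hF : Fintype.card F = q ^ 2) {E G : Matrix (Fin n) (Fin m) F} (h : Hyp (Fld.frob hF) E G)
    {w : Matrix (Fin n) (Fin 1) F} (C : Sk (Fld.frob hF) m) :
    ((uu hF h C : Matrix.SpecialLinearGroup (Fin n) F) : Matrix (Fin n) (Fin n) F) = heis (Fld.frob hF) E w 0 C.1 := by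
  show 1 + E * C.1 * cj (Fld.frob hF) E = _
  have : cj (Fld.frob hF) (0 : Matrix (Fin m) (Fin 1) F) = 0 := by ext i j; simp [cj]
  rw [heis, this]
  simp

theorem uu_X (hF : Fintype.card F = q ^ 2) {E G : Matrix (Fin n) (Fin m) F} (h : Hyp (Fld.frob hF) E G)
    {w : Matrix (Fin n) (Fin 1) F} (hw : Uv (Fld.frob hF) E G w) (A : Matrix (Fin m) (Fin 1) F)
    (B : Matrix (Fin m) (Fin m) F) (hB : B + cj (Fld.frob hF) B = -(A * cj (Fld.frob hF) A))
    (C : Sk (Fld.frob hF) m) : uu hF h C * X hF h hw A B hB = X hF h hw A B hB * uu hF h C := by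
  apply Subtype.ext
  apply Subtype.ext
  show ((uu hF h C : Matrix.SpecialLinearGroup (Fin n) F) : Matrix (Fin n) (Fin n) F) * heis (Fld.frob hF) E w A B =
    heis (Fld.frob hF) E w A B * ((uu hF h C : Matrix.SpecialLinearGroup (Fin n) F) : Matrix (Fin n) (Fin n) F)
  have h0 : cj (Fld.frob hF) (0 : Matrix (Fin m) (Fin 1) F) = 0 := by ext i j; simp [cj]
  rw [uu_heis hF h (w := w) C, heis_mul h hw, heis_mul h hw, h0]
  simp [add_comm]

theorem X_X (hF : Fintype.card F = q ^ 2) {E G : Matrix (Fin n) (Fin m) F} (h : Hyp (Fld.frob hF) E G)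
    {w : Matrix (Fin n) (Fin 1) F} (hw : Uv (Fld.frob hF) E G w) (A : Matrix (Fin m) (Fin 1) F)
    (B : Matrix (Fin m) (Fin m) F) (hB : B + cj (Fld.frob hF) B = -(A * cj (Fld.frob hF) A))
    (A' : Matrix (Fin m) (Fin 1) F)
    (B' : Matrix (Fin m) (Fin m) F) (hB' : B' + cj (Fld.frob hF) B' = -(A' * cj (Fld.frob hF) A'))
    (C : Sk (Fld.frob hF) m) (hC : C.1 = A' * cj (Fld.frob hF) A - A * cj (Fld.frob hF) A') :
    X hF h hw A B hB * X hF h hw A' B' hB' = uu hF h C * (X hF h hw A' B' hB' * X hF h hw A B hB) := by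
  apply Subtype.ext
  apply Subtype.ext
  show heis (Fld.frob hF) E w A B * heis (Fld.frob hF) E w A' B' =
    ((uu hF h C : Matrix.SpecialLinearGroup (Fin n) F) : Matrix (Fin n) (Fin n) F) *
      (heis (Fld.frob hF) E w A' B' * heis (Fld.frob hF) E w A B)
  have h0 : ∀ Z : Matrix (Fin m) (Fin 1) F, (0 : Matrix (Fin m) (Fin 1) F) * cj (Fld.frob hF) Z = 0 := fun Z => by simp
  rw [uu_heis hF h (w := w) C, heis_mul h hw, heis_mul h hw, heis_mul h hw, h0, hC]
  congr 1
  · abel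
  · abel

open Cfsg.Agent.H15 in
/-- non-trivial weight spaces have dimension at least `q` -/
theorem W_ge (hF : Fintype.card F = q ^ 2) {E G : Matrix (Fin n) (Fin m) F} (h : Hyp (Fld.frob hF) E G)
    {w : Matrix (Fin n) (Fin 1) F} (hw : Uv (Fld.frob hF) E G w) {κ : F} (D : Dat (Fld.frob hF) κ) {K V : Type*} [Field K]
    [AddCommGroup V] [Module K V] [FiniteDimensional K V]
    (r : Cfsg.SU n F q →* Module.End K V) {ψ : AddChar (F₀ (Fld.frob hF)) K} (hψ : ψ ≠ 1)
    {φ : Sk (Fld.frob hF) m →ₗ[F₀ (Fld.frob hF)] F₀ (Fld.frob hF)} (hφ : φ ≠ 0) (hW : Wt.W r (uu hF h) ψ φ ≠ ⊥) :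
    q ≤ finrank K (Wt.W r (uu hF h) ψ φ) := by
  classical
  obtain ⟨x₀, hx₀⟩ : ∃ x₀, φ (sk D x₀) ≠ 0 := by
    by_contra hcon
    push Not at hcon
    exact hφ (ext_sk D (fun x => by rw [hcon]; rfl))
  obtain ⟨β, hβ⟩ := UGen.exists_trace hF (-1) (by rw [map_neg, map_one])
  have hσc : ∀ c : F, c * Fld.frob hF c ∈ F₀ (Fld.frob hF) := fun c => by
    rw [mem_F₀, map_mul, Fld.frob_frob, mul_comm]
  have hB : ∀ c : F, (β * (c * Fld.frob hF c)) • vv (Fld.frob hF) x₀ x₀ +
      cj (Fld.frob hF) ((β * (c * Fld.frob hF c)) • vv (Fld.frob hF) x₀ x₀) =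
      -(col (c • x₀) * cj (Fld.frob hF) (col (c • x₀))) := by
    intro c
    rw [cj_smul, cj_vv _ (Fld.frob_frob hF), col_mul]
    ext i j
    simp only [Matrix.add_apply, Matrix.smul_apply, vv_apply, Matrix.neg_apply, smul_eq_mul, Pi.smul_apply, map_mul,
      Fld.frob_frob]
    linear_combination (c * Fld.frob hF c * (x₀ i * Fld.frob hF (x₀ j))) * hβ
  have hκ := D.κ0
  -- the scalar
  have hs : ∀ a c : F, (c * Fld.frob hF a - a * Fld.frob hF c) / κ ∈ F₀ (Fld.frob hF) := by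
    intro a c
    rw [mem_F₀, map_div₀, map_sub, map_mul, map_mul, Fld.frob_frob, Fld.frob_frob, D.κs]
    field_simp
    ring
  obtain ⟨s, hs'⟩ : ∃ s : F → F → F₀ (Fld.frob hF), ∀ a c, ((s a c : F₀ (Fld.frob hF)) : F) =
      (c * Fld.frob hF a - a * Fld.frob hF c) / κ := ⟨fun a c => ⟨_, hs a c⟩, fun a c => rfl⟩
  have hC : ∀ a c : F, (s a c • sk D x₀).1 = col (c • x₀) * cj (Fld.frob hF) (col (a • x₀)) -
      col (a • x₀) * cj (Fld.frob hF) (col (c • x₀)) := by
    intro a c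
    rw [col_mul, col_mul]
    show ((s a c : F₀ (Fld.frob hF)) : F) • (κ • vv (Fld.frob hF) x₀ x₀) = _
    rw [hs']
    ext i j
    simp only [Matrix.sub_apply, Matrix.smul_apply, vv_apply, smul_eq_mul, Pi.smul_apply, map_mul]
    field_simp
  have hb := Wt.pair_bound (A := F) r (Wt.W r (uu hF h) ψ φ) hW (fun a => X hF h hw (col (a • x₀)) _ (hB a))
    (fun a v hv => Wt.W_map _ id (fun C => uu_X hF h hw _ _ (hB a) C) (fun _ => rfl) hv)
    (fun a v hv => Wt.W_map _ id (fun C => by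
      have h1 := uu_X hF h hw _ _ (hB a) C
      rw [id]
      exact (Commute.inv_right (a := uu hF h C) (b := X hF h hw _ _ (hB a)) h1)) (fun _ => rfl) hv)
    (fun a c => ψ (φ (s a c • sk D x₀)))
    (fun a c => by
      intro h0
      have h1 := AddChar.map_neg_eq_inv ψ (φ (s a c • sk D x₀))
      have h2 : ψ (φ (s a c • sk D x₀)) * ψ (-φ (s a c • sk D x₀)) = 1 := by
        rw [← AddChar.map_add_eq_mul, add_neg_cancel, AddChar.map_zero_eq_one]
      rw [h0, zero_mul] at h2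
      exact zero_ne_one h2)
    (fun a c v hv => by
      rw [← Module.End.mul_apply, ← map_mul, X_X hF h hw _ _ (hB a) _ _ (hB c) _ (hC a c), map_mul, map_mul,
        Module.End.mul_apply, Module.End.mul_apply]
      have h3 : r (X hF h hw (col (c • x₀)) _ (hB c)) (r (X hF h hw (col (a • x₀)) _ (hB a)) v) ∈
          Wt.W r (uu hF h) ψ φ :=
        Wt.W_map _ id (fun C => uu_X hF h hw _ _ (hB c) C) (fun _ => rfl)
          (Wt.W_map _ id (fun C => uu_X hF h hw _ _ (hB a) C) (fun _ => rfl) hv)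
      exact (Wt.mem_W _ _ _).mp h3 _)
    (Finset.univ.image (fun a : F => fun c => ψ (φ (s a c • sk D x₀))))
    (fun χ hχ => by
      obtain ⟨a, _, ha⟩ := Finset.mem_image.mp hχ
      exact ⟨a, ha⟩)
  have hinj : Function.Injective (fun a : F => fun c : F => ψ (φ (s a c • sk D x₀))) := by
    intro a b hab
    by_contra hne
    apply hψ
    ext y
    rw [AddChar.one_apply]
    have hd : a - b ≠ 0 := sub_ne_zero.mpr hne
    -- choose c with s a c - s b c = y / φ (sk x₀)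
    obtain ⟨l, hl⟩ := UGen.exists_trace hF 1 (by rw [map_one])
    obtain ⟨z, hz⟩ : ∃ z : F₀ (Fld.frob hF), z = y / φ (sk D x₀) := ⟨_, rfl⟩
    have hzσ : Fld.frob hF (z : F) = z := (mem_F₀ _).mp z.2
    have hd' : Fld.frob hF (a - b) ≠ 0 := (map_ne_zero _).mpr hd
    obtain ⟨c, hc⟩ : ∃ c, c = κ * z * l / Fld.frob hF (a - b) := ⟨_, rfl⟩
    have h1 : s a c - s b c = z := by
      apply Subtype.ext
      show ((s a c : F₀ (Fld.frob hF)) : F) - ((s b c : F₀ (Fld.frob hF)) : F) = z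
      rw [hs', hs', ← sub_div, div_eq_iff hκ]
      have e1 : c * Fld.frob hF (a - b) = κ * z * l := by
        rw [hc, div_mul_cancel₀ _ hd']
      have e2 : (a - b) * Fld.frob hF c = - (κ * z * Fld.frob hF l) := by
        have h3 := congrArg (Fld.frob hF) e1
        rw [map_mul, Fld.frob_frob, map_mul, map_mul, D.κs, hzσ] at h3
        linear_combination h3
      rw [map_sub] at e1
      linear_combination e1 - e2 + κ * z * hl
    have h2 : ψ (φ (s a c • sk D x₀)) = ψ (φ (s b c • sk D x₀)) := congrFun hab c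
    have h3 : φ (s a c • sk D x₀) = y + φ (s b c • sk D x₀) := by
      rw [← sub_eq_iff_eq_add, map_smul, map_smul, smul_eq_mul, smul_eq_mul, ← sub_mul, h1, hz, div_mul_cancel₀ _ hx₀]
    rw [h3, AddChar.map_add_eq_mul] at h2
    have h4 : ψ (φ (s b c • sk D x₀)) ≠ 0 := by
      intro h0
      have h5 : ψ (φ (s b c • sk D x₀)) * ψ (-φ (s b c • sk D x₀)) = 1 := by
        rw [← AddChar.map_add_eq_mul, add_neg_cancel, AddChar.map_zero_eq_one]
      rw [h0, zero_mul] at h5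
      exact zero_ne_one h5
    exact mul_right_cancel₀ h4 (by rw [h2, one_mul])
  rw [Finset.card_image_of_injective _ hinj, Finset.card_univ, hF] at hb
  exact (Nat.pow_le_pow_iff_left (by norm_num)).mp hb

/-- odd dimensional unitary groups -/
theorem su_odd (hF : Fintype.card F = q ^ 2) {k : ℕ} (hn : n = 2 * (k + 1) + 1) (hex : ¬ (n = 3 ∧ q = 2)) {K V : Type*} [Field K]
    [IsAlgClosed K] [AddCommGroup V] [Module K V] [FiniteDimensional K V] (hK : ringChar K ≠ ringChar F)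
    (r : Cfsg.SU n F q →* Module.End K V) (hr : ∃ g, r g ≠ 1) : q ^ n - q ≤ (q + 1) * finrank K V := by
  classical
  obtain ⟨E, G, h, hz⟩ := exists_Hyp (m := k + 1) (n := n) hF (by omega)
  obtain ⟨w, hw⟩ := exists_Uv (Fld.frob_frob hF) hn hz
  obtain ⟨κ, D⟩ := exists_Dat hF
  have hss := UGen.hs hF n
  have hne : ∃ x, Fld.frob hF x ≠ x := hss.ne
  haveI : Finite F := Finite.of_fintype F
  obtain ⟨ψ, hψ⟩ := Wt.exists_addChar (K := K) (F := F₀ (Fld.frob hF)) (by rw [ringChar_F₀]; exact hK)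
  obtain ⟨φ, hφ, hW⟩ := Wt.exists_W (r := r) (F := F₀ (Fld.frob hF)) (u := uu hF h) (ψ := ψ)
    (by rw [ringChar_F₀]; exact hK) hψ (uu_add hF h) (by
      by_contra hcon
      push Not at hcon
      obtain ⟨g, hg⟩ := hr
      exact hg (eq_one_of_uu hF (by omega) hex (by omega) h r hcon g))
  have hWq := W_ge hF h hw D r hψ hφ hW
  have hlev : ∀ M : Matrix (Fin (k + 1)) (Fin (k + 1)) F, M.det ≠ 0 →
      ∃ g : Cfsg.SU n F q, ∀ B, uu hF h B * g = g * uu hF h (al (Fld.frob_frob hF) M B) := by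
    intro M hM
    have hσM : Fld.frob hF M.det ≠ 0 := by simpa using hM
    obtain ⟨R, hR1, hR2, hR3⟩ := refl_exists h hw (M.det / Fld.frob hF M.det) (by
      rw [map_div₀, Fld.frob_frob]
      field_simp)
    exact exists_lev hF h M hM ⟨R, hR1, hR2, by rw [hR3, div_mul_cancel₀ _ hσM]⟩
  have hbound : ∀ S : Finset (Sk (Fld.frob hF) (k + 1) →ₗ[F₀ (Fld.frob hF)] F₀ (Fld.frob hF)),
      (∀ φ' ∈ S, ∃ M : Matrix (Fin (k + 1)) (Fin (k + 1)) F, M.det ≠ 0 ∧ φ' = φ ∘ₗ al (Fld.frob_frob hF) M) →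
      S.card * q ≤ finrank K V := by
    intro S hS
    have h1 := Wt.W_bound (r := r) (u := uu hF h) hψ (uu_add hF h) (Ω := S) (fun φ' => φ'.1) Subtype.val_injective q
      (fun φ' => by
        obtain ⟨M, hM, hM2⟩ := hS φ'.1 φ'.2
        obtain ⟨g, hg⟩ := hlev M hM
        exact hWq.trans (Wt.finrank_W_le g (al (Fld.frob_frob hF) M) hg (fun x => by rw [hM2]; rfl)))
    rwa [Fintype.card_coe] at h1
  have hq1 := Fld.one_lt_q hF
  rcases Nat.eq_zero_or_pos k with hk | hk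
  · subst hk
    have hn3 : n = 3 := by omega
    obtain ⟨S, hS⟩ : ∃ S, S = (Finset.univ.filter (fun c : F₀ (Fld.frob hF) => c ≠ 0)).image (fun c => c • φ) := ⟨_, rfl⟩
    have hSc : S.card = q - 1 := by
      rw [hS, Finset.card_image_of_injective]
      · rw [← Fintype.card_subtype, Fintype.card_subtype_compl, Fintype.card_subtype_eq, card_F₀ hF]
      · intro a b hab
        obtain ⟨B, hB⟩ : ∃ B, φ B ≠ 0 := by
          by_contra hcon
          push Not at hcon
          exact hφ (LinearMap.ext hcon)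
        have h1 : a • φ B = b • φ B := LinearMap.congr_fun hab B
        exact mul_right_cancel₀ hB h1
    have hb := hbound S (by
      intro φ' hφ'
      rw [hS] at hφ'
      obtain ⟨c, hc, rfl⟩ := Finset.mem_image.mp hφ'
      have hc0 := (Finset.mem_filter.mp hc).2
      obtain ⟨l, hl⟩ := UGen.exists_norm hF (c : F) ((mem_F₀ _).mp c.2)
      have hl0 : l ≠ 0 := by
        rintro rfl
        rw [zero_mul] at hl
        exact hc0 (Subtype.ext hl.symm)
      refine ⟨l • 1, by rw [Matrix.det_smul, Matrix.det_one, mul_one]; exact pow_ne_zero _ hl0, ?_⟩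
      apply LinearMap.ext
      intro B
      rw [LinearMap.smul_apply, LinearMap.comp_apply, ← map_smul]
      congr 1
      apply Subtype.ext
      rw [al_coe, cj_smul, cj_one]
      show (c : F) • B.1 = _
      rw [Matrix.smul_mul, Matrix.one_mul, Matrix.mul_smul, Matrix.mul_one, smul_smul, ← hl]
      congr 1
      ring)
    rw [hSc] at hb
    rw [hn3]
    have h5 : q ^ 3 - q = (q + 1) * ((q - 1) * q) := by
      obtain ⟨s, rfl⟩ : ∃ s, q = s + 1 := ⟨q - 1, by omega⟩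
      rw [Nat.add_sub_cancel]
      apply Nat.sub_eq_of_eq_add
      ring
    rw [h5]
    exact Nat.mul_le_mul_left _ hb
  · have h1 := sk_orbit D hne (UGen.exists_norm hF) hF (card_F₀ hF) (card_norm_one_le hF) hk φ hφ
    have hb := hbound (Os D φ) (by
      intro φ' hφ'
      obtain ⟨M, hM, hMσ, rfl⟩ := (mem_Os D).mp hφ'
      exact ⟨M, hM, rfl⟩)
    have h2 : q ^ n - q = (q ^ (2 * (k + 1)) - 1) * q := by
      rw [hn, pow_succ, Nat.sub_mul, one_mul]
    rw [h2]
    calc _ ≤ (q + 1) * (Os D φ).card * q := Nat.mul_le_mul_right _ h1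
      _ = (q + 1) * ((Os D φ).card * q) := by rw [mul_assoc]
      _ ≤ _ := Nat.mul_le_mul_left _ hb

end Cfsg.Agent.H15.WtSUo
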