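import Cfsg.Agent.H16_Nrm

set_option autoImplicit false

/-! Square roots in finite rings with involution. -/

namespace Cfsg.Agent.H16.Cj

open Cfsg.Agent.H16.Nrm

variable {A : Type*} [Ring A] [Finite A]

theorem unit_sub {S : Subring A} {x : S} (hx : IsUnit (x : A)) : IsUnit x := by
  obtain ⟨u, hu⟩ := hx
  have hfo : IsOfFinOrder u := isOfFinOrder_of_finite u
  have h1 : (x : A) ^ orderOf u = 1 := by rw [← hu, ← Units.val_pow_eq_pow_val, pow_orderOf_eq_one, Units.val_one]
  have h2 : x ^ orderOf u = 1 := Subtype.ext (by rw [SubmonoidClass.coe_pow, h1]; rfl)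
  exact IsUnit.of_pow_eq_one h2 hfo.orderOf_pos.ne'

theorem clos_comm {X : Set A} {x y : A} (h : ∀ a ∈ X, Commute y a) (hx : x ∈ Subring.closure X) : Commute y x := by
  induction hx using Subring.closure_induction with
  | mem x hx => exact h x hx
  | zero => exact Commute.zero_right y
  | one => exact Commute.one_right y
  | add a b _ _ ha hb => exact ha.add_right hb
  | neg a _ ha => exact ha.neg_right
  | mul a b _ _ ha hb => exact ha.mul_right hb

/-- symmetric units are of the form `st c * c`. -/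
theorem exists_root {st : A → A} (hadd : ∀ a b, st (a + b) = st a + st b) (hmul : ∀ a b, st (a * b) = st b * st a)
    (hinv : ∀ a, st (st a) = a) {s ω : A} (hs : IsUnit s) (hss : st s = s) (hsω : Commute s ω) (hωω : Commute ω (st ω))
    (hu : IsUnit (st ω - ω)) :
    ∃ c : A, IsUnit c ∧ st c * c = s ∧ ∀ x, Commute x s → Commute x ω → Commute x (st ω) → Commute x c := by
  have hst0 : st 0 = 0 := by
    have := hadd 0 0
    rw [add_zero] at this
    exact left_eq_add.mp this
  have hneg : ∀ a, st (-a) = -st a := by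
    intro a
    have := hadd a (-a)
    rw [add_neg_cancel, hst0] at this
    exact (neg_eq_of_add_eq_zero_right this.symm).symm
  have hst1 : st 1 = 1 := by
    have h1 := hmul (st 1) 1
    rw [mul_one, hinv] at h1
    rw [mul_one] at h1
    exact h1.symm
  have hsω' : Commute s (st ω) := by
    have h1 := congrArg st hsω.eq
    rw [hmul, hmul, hss] at h1
    exact h1.symm
  obtain ⟨X, hX⟩ : ∃ X : Set A, X = {s, ω + st ω, ω * st ω} := ⟨_, rfl⟩
  have hXc : ∀ y, Commute y s → Commute y ω → Commute y (st ω) → ∀ a ∈ X, Commute y a := by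
    intro y h1 h2 h3 a ha
    rw [hX] at ha
    rcases ha with rfl | rfl | rfl
    · exact h1
    · exact h2.add_right h3
    · exact h2.mul_right h3
  have hωX : ∀ a ∈ X, Commute ω a := hXc ω hsω.symm (Commute.refl _) hωω
  have hω'X : ∀ a ∈ X, Commute (st ω) a := hXc (st ω) hsω'.symm hωω.symm (Commute.refl _)
  have hcomm : ∀ x ∈ X, ∀ y ∈ X, x * y = y * x := by
    intro x hx y hy
    rw [hX] at hx
    rcases hx with rfl | rfl | rfl
    · exact (hXc x (Commute.refl _) hsω hsω' y hy).eq
    · exact ((hωX y hy).add_left (hω'X y hy)).eq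
    · exact ((hωX y hy).mul_left (hω'X y hy)).eq
  let _ : CommRing (Subring.closure X) := Subring.closureCommRingOfComm hcomm
  have hstX : ∀ x ∈ Subring.closure X, st x = x := by
    intro x hx
    induction hx using Subring.closure_induction with
    | mem x hx =>
      rw [hX] at hx
      rcases hx with rfl | rfl | rfl
      · exact hss
      · rw [hadd, hinv, add_comm]
      · rw [hmul, hinv]
    | zero => exact hst0
    | one => exact hst1
    | add a b _ _ ha hb => rw [hadd, ha, hb]
    | neg a _ ha => rw [hneg, ha]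
    | mul a b ha' hb' ha hb =>
      rw [hmul, ha, hb]
      have := mul_comm (⟨b, hb'⟩ : Subring.closure X) ⟨a, ha'⟩
      exact congrArg Subtype.val this
  have hsm : s ∈ Subring.closure X := Subring.subset_closure (by rw [hX]; simp)
  have hTm : ω + st ω ∈ Subring.closure X := Subring.subset_closure (by rw [hX]; simp)
  have hNm : ω * st ω ∈ Subring.closure X := Subring.subset_closure (by rw [hX]; simp)
  obtain ⟨x, y, hxy⟩ := univ_ring (T := (⟨ω + st ω, hTm⟩ : Subring.closure X)) (N := ⟨ω * st ω, hNm⟩)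
    (unit_sub (by
      have h1 : (((⟨ω + st ω, hTm⟩ : Subring.closure X) ^ 2 - 4 * ⟨ω * st ω, hNm⟩ : Subring.closure X) : A) =
          (st ω - ω) * (st ω - ω) := by
        change (ω + st ω) ^ 2 - 4 * (ω * st ω) = _
        have h2 : ω * st ω = st ω * ω := hωω.eq
        rw [pow_two, mul_add, add_mul, add_mul, sub_mul, mul_sub, mul_sub, ← h2]
        have h3 : (4 : A) * (ω * st ω) = ω * st ω + ω * st ω + ω * st ω + ω * st ω := by
          have : (4 : A) = 1 + 1 + 1 + 1 := by norm_num
          rw [this]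
          simp only [add_mul, one_mul]
        rw [h3]
        abel
      rw [h1]
      exact hu.mul hu)) (⟨s, hsm⟩ : Subring.closure X) (unit_sub hs)
  have hxy' : (x : A) ^ 2 + (ω + st ω) * x * y + (ω * st ω) * (y : A) ^ 2 = s := congrArg Subtype.val hxy
  have cxω : Commute ω (x : A) := clos_comm hωX x.2
  have cyω : Commute ω (y : A) := clos_comm hωX y.2
  have cxω' : Commute (st ω) (x : A) := clos_comm hω'X x.2
  have cyω' : Commute (st ω) (y : A) := clos_comm hω'X y.2
  have cxy : Commute (x : A) (y : A) := congrArg Subtype.val (mul_comm x y)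
  have hmain : st ((x : A) + ω * y) * ((x : A) + ω * y) = s := by
    rw [hadd, hmul, hstX _ x.2, hstX _ y.2, ← hxy', add_mul, mul_add, mul_add]
    have e1 : (x : A) * (ω * y) = ω * x * y := by rw [← mul_assoc, ← cxω.eq]
    have e2 : (y : A) * st ω * x = st ω * x * y := by
      rw [← cyω'.eq, mul_assoc, ← cxy.eq, mul_assoc]
    have e3 : (y : A) * st ω * (ω * y) = ω * st ω * (y : A) ^ 2 := by
      rw [← cyω'.eq, mul_assoc, ← mul_assoc (y : A) ω, ← cyω.eq, mul_assoc, ← mul_assoc (st ω) ω, ← hωω.eq, pow_two]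
    rw [e1, e2, e3]
    simp only [pow_two, add_mul]
    abel
  refine ⟨(x : A) + ω * y, ?_, hmain, ?_⟩
  · obtain ⟨u, hu'⟩ := hs
    have h1 : (↑u⁻¹ : A) * st ((x : A) + ω * y) * ((x : A) + ω * y) = 1 := by
      rw [mul_assoc, hmain, ← hu']
      exact u.inv_mul
    have h2 : Function.Injective (fun z : A => ((x : A) + ω * y) * z) := by
      intro z w h
      have h3 := congrArg (fun t => ((↑u⁻¹ : A) * st ((x : A) + ω * y)) * t) h
      simp only [← mul_assoc] at h3
      rw [h1, one_mul, one_mul] at h3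
      exact h3
    obtain ⟨v, hv⟩ := Finite.surjective_of_injective h2 1
    have h4 : v = (↑u⁻¹ : A) * st ((x : A) + ω * y) := by
      have h5 := congrArg (fun t => ((↑u⁻¹ : A) * st ((x : A) + ω * y)) * t) hv
      simp only [← mul_assoc] at h5
      rw [h1, one_mul, mul_one] at h5
      exact h5
    exact ⟨⟨_, v, hv, by rw [h4]; exact h1⟩, rfl⟩
  · intro z h1 h2 h3
    have h4 := clos_comm (hXc z h1 h2 h3) x.2
    have h5 := clos_comm (hXc z h1 h2 h3) y.2
    exact h4.add_right (h2.mul_right h5)


/-- symmetric units in the form needed for Hilbert 90. -/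
theorem exists_sym {st : A → A} (hadd : ∀ a b, st (a + b) = st a + st b) (hmul : ∀ a b, st (a * b) = st b * st a)
    (hinv : ∀ a, st (st a) = a) {P Q : A} (hPQ : P * Q = 1) (hQP : Q * P = 1) {ω : A} (hω : ∀ x, Commute x ω)
    (hω' : ∀ x, Commute x (st ω)) (hu : IsUnit (st ω - ω)) :
    ∃ a : A, IsUnit (P * a + st (P * a)) ∧ ∀ x, Commute x (Q * st P) → Commute x a := by
  have hst0 : st 0 = 0 := by
    have := hadd 0 0
    rw [add_zero] at this
    exact left_eq_add.mp this
  have hneg : ∀ a, st (-a) = -st a := by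
    intro a
    have := hadd a (-a)
    rw [add_neg_cancel, hst0] at this
    exact (neg_eq_of_add_eq_zero_right this.symm).symm
  have hst1 : st 1 = 1 := by
    have h1 := hmul (st 1) 1
    rw [mul_one, hinv] at h1
    rw [mul_one] at h1
    exact h1.symm
  have hsP : st P * st Q = 1 := by rw [← hmul, hQP, hst1]
  have hsQ : st Q * st P = 1 := by rw [← hmul, hPQ, hst1]
  obtain ⟨z, hz⟩ : ∃ z, z = Q * st P := ⟨_, rfl⟩
  obtain ⟨z', hz'⟩ : ∃ z', z' = st Q * P := ⟨_, rfl⟩
  have hzz' : z * z' = 1 := by rw [hz, hz', mul_assoc, ← mul_assoc (st P), hsP, one_mul, hQP]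
  have hz'z : z' * z = 1 := by rw [hz, hz', mul_assoc, ← mul_assoc P, hPQ, one_mul, hsQ]
  -- the map
  obtain ⟨α, hα⟩ : ∃ α : A → A, ∀ a, α a = Q * st a * P := ⟨_, fun a => rfl⟩
  have hαz : α z = z' := by rw [hα, hz, hmul, hinv, ← mul_assoc, hQP, one_mul, hz']
  have hαz' : α z' = z := by rw [hα, hz', hmul, hinv, mul_assoc, mul_assoc, hQP, mul_one, hz]
  have hαω : α ω = st ω := by rw [hα, (hω' Q).eq, mul_assoc, hQP, mul_one]
  have hαω' : α (st ω) = ω := by rw [hα, hinv, (hω Q).eq, mul_assoc, hQP, mul_one]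
  have hα0 : α 0 = 0 := by rw [hα, hst0, mul_zero, zero_mul]
  have hα1 : α 1 = 1 := by rw [hα, hst1, mul_one, hQP]
  have hαadd : ∀ a b, α (a + b) = α a + α b := by intro a b; rw [hα, hα, hα, hadd, mul_add, add_mul]
  have hαneg : ∀ a, α (-a) = - α a := by intro a; rw [hα, hα, hneg, mul_neg, neg_mul]
  have hαmul : ∀ a b, α (a * b) = α b * α a := by
    intro a b
    rw [hα, hα, hα, hmul]
    have : Q * st b * P * (Q * st a * P) = Q * st b * (P * Q) * st a * P := by simp only [mul_assoc]
    rw [this, hPQ, mul_one]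
    simp only [mul_assoc]
  obtain ⟨X, hX⟩ : ∃ X : Set A, X = {z, z', ω, st ω} := ⟨_, rfl⟩
  have hXc : ∀ y, Commute y z → ∀ a ∈ X, Commute y a := by
    intro y h1 a ha
    rw [hX] at ha
    rcases ha with rfl | rfl | rfl | rfl
    · exact h1
    · have h2 : y * a = a * y := by
        calc y * a = a * z * (y * a) := by rw [hz'z, one_mul]
          _ = a * (z * y) * a := by simp only [mul_assoc]
          _ = a * (y * z) * a := by rw [h1.eq]
          _ = a * y * (z * a) := by simp only [mul_assoc]
          _ = a * y := by rw [hzz', mul_one]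
      exact h2
    · exact hω y
    · exact hω' y
  have hcomm : ∀ x ∈ X, ∀ y ∈ X, x * y = y * x := by
    intro x hx y hy
    have h1 : Commute z x := hXc z (Commute.refl _) x hx
    exact (hXc x h1.symm y hy).eq
  let _ : CommRing (Subring.closure X) := Subring.closureCommRingOfComm hcomm
  have hmem : ∀ x ∈ Subring.closure X, α x ∈ Subring.closure X ∧ α (α x) = x := by
    intro x hx
    induction hx using Subring.closure_induction with
    | mem x hx =>
      rw [hX] at hx
      rcases hx with rfl | rfl | rfl | rfl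
      · rw [hαz, hαz']; exact ⟨Subring.subset_closure (by rw [hX]; simp), rfl⟩
      · rw [hαz', hαz]; exact ⟨Subring.subset_closure (by rw [hX]; simp), rfl⟩
      · rw [hαω, hαω']; exact ⟨Subring.subset_closure (by rw [hX]; simp), rfl⟩
      · rw [hαω', hαω]; exact ⟨Subring.subset_closure (by rw [hX]; simp), rfl⟩
    | zero => rw [hα0, hα0]; exact ⟨zero_mem _, rfl⟩
    | one => rw [hα1, hα1]; exact ⟨one_mem _, rfl⟩
    | add a b _ _ ha hb => rw [hαadd, hαadd, ha.2, hb.2]; exact ⟨add_mem ha.1 hb.1, rfl⟩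
    | neg a _ ha => rw [hαneg, hαneg, ha.2]; exact ⟨neg_mem ha.1, rfl⟩
    | mul a b _ _ ha hb => rw [hαmul, hαmul, ha.2, hb.2]; exact ⟨mul_mem hb.1 ha.1, rfl⟩
  let αR : Subring.closure X ≃+* Subring.closure X :=
    { toFun := fun x => ⟨α x, (hmem x x.2).1⟩
      invFun := fun x => ⟨α x, (hmem x x.2).1⟩
      left_inv := fun x => Subtype.ext (hmem x x.2).2
      right_inv := fun x => Subtype.ext (hmem x x.2).2
      map_mul' := fun x y => by
        apply Subtype.ext
        change α ((x : A) * y) = α x * α y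
        rw [hαmul]
        exact congrArg Subtype.val (mul_comm (⟨α y, (hmem y y.2).1⟩ : Subring.closure X) ⟨α x, (hmem x x.2).1⟩)
      map_add' := fun x y => Subtype.ext (hαadd _ _) }
  have hzm : z ∈ Subring.closure X := Subring.subset_closure (by rw [hX]; simp)
  have hωm : ω ∈ Subring.closure X := Subring.subset_closure (by rw [hX]; simp)
  obtain ⟨a, ha⟩ := hilbert αR (fun x => Subtype.ext (hmem x x.2).2) (ω := ⟨ω, hωm⟩) (unit_sub (by
      change IsUnit (α ω - ω)
      rw [hαω]
      exact hu)) (z := ⟨z, hzm⟩) (Subtype.ext (by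
      change z * α z = 1
      rw [hαz, hzz']))
  refine ⟨a, ?_, fun x hx => clos_comm (hXc x (by rw [hz]; exact hx)) a.2⟩
  have h1 : IsUnit ((a : A) + α a * z) := ha.map (Subring.subtype _)
  have h2 : P * (a : A) + st (P * a) = P * ((a : A) + α a * z) := by
    rw [mul_add, hmul, hα, hz]
    congr 1
    have : P * (Q * st (a : A) * P * (Q * st P)) = (P * Q) * st a * (P * Q) * st P := by simp only [mul_assoc]
    rw [this, hPQ, one_mul, mul_one]
  rw [h2]
  exact (show IsUnit P from ⟨⟨P, Q, hPQ, hQP⟩, rfl⟩).mul h1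

end Cfsg.Agent.H16.Cj
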