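import Cfsg.Agent.H16_Cj
import Cfsg.Agent.H5_Unit

set_option autoImplicit false

/-! Conjugacy in unitary groups. -/

namespace Cfsg.Agent.H16.CjU

open Matrix Cfsg.Agent.H5 Cfsg.Agent.H5.Unit

variable {K : Type*} [Field K] [Fintype K] {q n : ℕ} (hK : Fintype.card K = q ^ 2)

/-- conjugate transpose. -/
noncomputable def st (M : Matrix (Fin n) (Fin n) K) : Matrix (Fin n) (Fin n) K := (M.map (Fld.frob hK))ᵀ

theorem st_add (a b : Matrix (Fin n) (Fin n) K) : st hK (a + b) = st hK a + st hK b := by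
  ext i j
  exact _root_.map_add (Fld.frob hK) _ _

theorem st_mul (a b : Matrix (Fin n) (Fin n) K) : st hK (a * b) = st hK b * st hK a := by
  rw [st, Matrix.map_mul, Matrix.transpose_mul]
  rfl

theorem st_st (a : Matrix (Fin n) (Fin n) K) : st hK (st hK a) = a := by
  ext i j
  exact Fld.frob_frob hK _

theorem st_one : st hK (1 : Matrix (Fin n) (Fin n) K) = 1 := by
  have h1 := st_mul hK (st hK 1) (1 : Matrix (Fin n) (Fin n) K)
  rw [mul_one, st_st, mul_one] at h1
  exact h1.symm

theorem st_smul (a : K) : st hK (a • (1 : Matrix (Fin n) (Fin n) K)) = Fld.frob hK a • 1 := by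
  ext i j
  change Fld.frob hK (a * (1 : Matrix (Fin n) (Fin n) K) j i) = Fld.frob hK a * (1 : Matrix (Fin n) (Fin n) K) i j
  rw [_root_.map_mul, Matrix.one_apply, Matrix.one_apply]
  by_cases h : i = j
  · rw [if_pos h, if_pos h.symm, _root_.map_one]
  · rw [if_neg h, if_neg (fun h' => h h'.symm), _root_.map_zero]

theorem mem_GU_st (g : GL (Fin n) K) : g ∈ Cfsg.GU n K q ↔ st hK (g : Matrix (Fin n) (Fin n) K) * g = 1 := by
  rw [mem_GU_iff hK]
  constructor
  · intro h
    have := congrArg Matrix.transpose h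
    rw [Matrix.transpose_mul, Matrix.transpose_transpose, Matrix.transpose_one] at this
    exact this
  · intro h
    have := congrArg Matrix.transpose h
    rw [Matrix.transpose_mul, st, Matrix.transpose_transpose, Matrix.transpose_one] at this
    exact this

theorem exists_om : ∃ ω : Matrix (Fin n) (Fin n) K, (∀ x, Commute x ω) ∧ (∀ x, Commute x (st hK ω)) ∧
    IsUnit (st hK ω - ω) := by
  obtain ⟨ω₀, hω₀⟩ : ∃ ω₀ : K, Fld.frob hK ω₀ ≠ ω₀ := by
    by_contra hcon
    push Not at hcon
    exact Fld.frob_ne_id hK (RingHom.ext hcon)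
  have hc : ∀ (a : K) (x : Matrix (Fin n) (Fin n) K), Commute x (a • 1) := by
    intro a x
    rw [commute_iff_eq, Matrix.mul_smul, Matrix.smul_mul, mul_one, one_mul]
  refine ⟨ω₀ • 1, hc _, by rw [st_smul]; exact hc _, ?_⟩
  rw [st_smul, ← sub_smul]
  have h1 : Fld.frob hK ω₀ - ω₀ ≠ 0 := sub_ne_zero.mpr hω₀
  refine ⟨⟨(Fld.frob hK ω₀ - ω₀) • 1, (Fld.frob hK ω₀ - ω₀)⁻¹ • 1, ?_, ?_⟩, rfl⟩
  · rw [Matrix.smul_mul, one_mul, smul_smul, mul_inv_cancel₀ h1, one_smul]
  · rw [Matrix.smul_mul, one_mul, smul_smul, inv_mul_cancel₀ h1, one_smul]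

include hK in
theorem conj_GU {A B P : GL (Fin n) K} (hA : A ∈ Cfsg.GU n K q) (hB : B ∈ Cfsg.GU n K q) (h : P * A = B * P) :
    ∃ U ∈ Cfsg.GU n K q, U * A = B * U := by
  rw [mem_GU_st hK] at hA hB
  obtain ⟨ω, hω, hω', hu⟩ := exists_om (n := n) hK
  have hm : P.val * A = B * P := congrArg Units.val h
  obtain ⟨s, hs⟩ : ∃ s, s = st hK P.val * P := ⟨_, rfl⟩
  have hPu : IsUnit (st hK P.val) := by
    refine ⟨⟨st hK P.val, st hK (P⁻¹).val, ?_, ?_⟩, rfl⟩
    · rw [← st_mul, ← Units.val_mul, inv_mul_cancel, Units.val_one, st_one]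
    · rw [← st_mul, ← Units.val_mul, mul_inv_cancel, Units.val_one, st_one]
  have hss : st hK s = s := by rw [hs, st_mul, st_st]
  have hAs : Commute A.val s := by
    have h1 : st hK A.val * s * A = s := by
      rw [hs]
      calc _ = (st hK A.val * st hK P.val) * (P.val * A.val) := by
            simp only [mul_assoc]
        _ = st hK (B.val * P.val) * (B.val * P.val) := by rw [← st_mul, hm]
        _ = st hK P.val * (st hK B.val * B.val) * P.val := by
            rw [st_mul]; simp only [mul_assoc]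
        _ = _ := by rw [hB, mul_one]
    have h2 : A.val * st hK A.val = 1 := mul_eq_one_comm.mp hA
    change A.val * s = s * A
    calc _ = A.val * (st hK A.val * s * A) := by rw [h1]
      _ = (A.val * st hK A.val) * s * A := by simp only [mul_assoc]
      _ = _ := by rw [h2, one_mul]
  obtain ⟨c, hcu, hc, hcc⟩ := Cj.exists_root (st_add hK) (st_mul hK) (st_st hK) (s := s) (ω := ω)
    (by rw [hs]; exact hPu.mul P.isUnit) hss (hω s) (hω' ω) hu
  have hcA := hcc A hAs (hω _) (hω' _)
  obtain ⟨C, hC⟩ := hcu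
  have hCA : C * A = A * C := Units.ext (by rw [Units.val_mul, Units.val_mul, hC]; exact hcA.eq.symm)
  refine ⟨P * C⁻¹, ?_, ?_⟩
  · rw [mem_GU_st hK, Units.val_mul, st_mul]
    have h3 : st hK (C⁻¹).val * st hK c = 1 := by
      rw [← st_mul, ← hC, ← Units.val_mul, mul_inv_cancel, Units.val_one, st_one]
    calc _ = st hK (C⁻¹).val * s * (C⁻¹).val := by
          rw [hs]; simp only [mul_assoc]
      _ = (st hK (C⁻¹).val * st hK c) * (C.val * (C⁻¹).val) := by
          rw [← hc, hC]; simp only [mul_assoc]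
      _ = 1 := by rw [h3, one_mul, ← Units.val_mul, mul_inv_cancel, Units.val_one]
  · have h4 : C⁻¹ * A = A * C⁻¹ := by
      calc C⁻¹ * A = C⁻¹ * (A * C) * C⁻¹ := by group
        _ = C⁻¹ * (C * A) * C⁻¹ := by rw [hCA]
        _ = A * C⁻¹ := by group
    rw [mul_assoc, h4, ← mul_assoc, h, mul_assoc]

/-- every invertible hermitian matrix is a norm. -/
theorem herm_norm {s : Matrix (Fin n) (Fin n) K} (hs : IsUnit s) (hss : st hK s = s) :
    ∃ C : GL (Fin n) K, st hK C.val * C = s := by
  obtain ⟨ω, hω, hω', hu⟩ := exists_om (n := n) hK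
  obtain ⟨c, ⟨C, hC⟩, hc, -⟩ := Cj.exists_root (st_add hK) (st_mul hK) (st_st hK) (s := s) (ω := ω) hs hss (hω s) (hω' ω) hu
  exact ⟨C, by rw [hC]; exact hc⟩

theorem exists_GU {A P : GL (Fin n) K} (h : st hK A.val * P * A = P) :
    ∃ B ∈ Cfsg.GU n K q, IsConj A B := by
  obtain ⟨ω, hω, hω', hu⟩ := exists_om (n := n) hK
  obtain ⟨a, hau, hac⟩ := Cj.exists_sym (st_add hK) (st_mul hK) (st_st hK) (P := P.val)
    (Q := (P⁻¹).val) (by rw [← Units.val_mul, mul_inv_cancel, Units.val_one])
    (by rw [← Units.val_mul, inv_mul_cancel, Units.val_one]) hω hω' hu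
  have hP' : st hK A.val * st hK P.val * A = st hK P.val := by
    have h1 := congrArg (st hK) h
    rw [st_mul, st_mul, st_st] at h1
    rw [mul_assoc]
    exact h1
  have hAa : Commute A.val a := by
    apply hac
    have h1 : (A⁻¹).val * (P⁻¹).val * st hK P.val * A =
        (P⁻¹).val * st hK P.val := by
      have h2 : (A⁻¹).val * (P⁻¹).val =
          (P⁻¹).val * st hK A.val := by
        have h3 : (P⁻¹).val * (st hK A.val * P * A) *
            (A⁻¹).val * (P⁻¹).val =
            (P⁻¹).val * P * (A⁻¹).val * (P⁻¹).val := by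
          rw [h]
        have h4 : (P⁻¹).val * P = 1 := by rw [← Units.val_mul, inv_mul_cancel, Units.val_one]
        have h5 : A.val * (A⁻¹).val = 1 := by
          rw [← Units.val_mul, mul_inv_cancel, Units.val_one]
        have h6 : P.val * (P⁻¹).val = 1 := by
          rw [← Units.val_mul, mul_inv_cancel, Units.val_one]
        rw [h4, one_mul] at h3
        rw [← h3]
        simp only [mul_assoc]
        rw [← mul_assoc A.val, h5, one_mul, h6, mul_one]
      rw [h2, mul_assoc, mul_assoc, ← mul_assoc (st hK A.val), hP']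
    change A.val * _ = _ * A.val
    conv_lhs => rw [← h1]
    have h5 : A.val * (A⁻¹).val = 1 := by
      rw [← Units.val_mul, mul_inv_cancel, Units.val_one]
    simp only [← mul_assoc]
    rw [h5, one_mul]
  obtain ⟨s, hs⟩ : ∃ s, s = P.val * a + st hK (P.val * a) := ⟨_, rfl⟩
  rw [← hs] at hau
  have hss : st hK s = s := by rw [hs, st_add, st_st, add_comm]
  have hPa : st hK A.val * (P.val * a) * A = P.val * a := by
    calc _ = st hK A.val * P * (a * A) := by simp only [mul_assoc]
      _ = (st hK A.val * P * A) * a := by rw [← hAa.eq]; simp only [mul_assoc]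
      _ = _ := by rw [h]
  have hAs : st hK A.val * s * A = s := by
    rw [hs, mul_add, add_mul, hPa]
    congr 1
    have h1 := congrArg (st hK) hPa
    rw [st_mul, st_mul (a := st hK _), st_st, ← mul_assoc] at h1
    exact h1
  obtain ⟨C, hC⟩ := herm_norm hK hau hss
  refine ⟨C * A * C⁻¹, ?_, isConj_iff.mpr ⟨C, rfl⟩⟩
  rw [mem_GU_st hK, Units.val_mul, Units.val_mul, st_mul, st_mul]
  have h3 : st hK (C⁻¹).val * st hK C.val = 1 := by
    rw [← st_mul, ← Units.val_mul, mul_inv_cancel, Units.val_one, st_one]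
  calc _ = st hK (C⁻¹).val *
        (st hK A.val * (st hK C.val * C) * A) * (C⁻¹).val := by
        simp only [mul_assoc]
    _ = (st hK (C⁻¹).val * st hK C.val) *
        (C.val * (C⁻¹).val) := by rw [hC, hAs, ← hC]; simp only [mul_assoc]
    _ = 1 := by rw [h3, one_mul, ← Units.val_mul, mul_inv_cancel, Units.val_one]

end Cfsg.Agent.H16.CjU
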