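import Cfsg.Prelude.Def_SporadicB

/-! Double covers of alternating groups: uniqueness of the involution in small degree. -/

set_option autoImplicit false
set_option linter.style.haveILetI false

namespace Cfsg.Agent.H16.DC

/-- splitting criterion -/
theorem split {H : Type*} [Group H] [Finite H] {z : H} (hz : ∀ h, h * z = z * h) (hz1 : z ≠ 1) (hz2 : z * z = 1)
    (hZ : ∀ x ∈ Subgroup.center H, x = 1 ∨ x = z)
    (Q : Subgroup H) (hQ : z ∉ Q) {m : ℕ} (hm : Odd m) (hc : Nat.card H = 2 * Nat.card Q * m) : ∃ L : Subgroup H, (Subgroup.center H).IsComplement' L := by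
  classical
  haveI : Fintype (H ⧸ Q) := Fintype.ofFinite _
  let f : H →* Equiv.Perm (H ⧸ Q) := MulAction.toPermHom H (H ⧸ Q)
  have hcard : Fintype.card (H ⧸ Q) = 2 * m := by
    have h1 := Subgroup.card_eq_card_quotient_mul_card_subgroup Q
    rw [hc, Nat.card_eq_fintype_card (α := H ⧸ Q)] at h1
    have h2 : 0 < Nat.card Q := Nat.card_pos
    apply Nat.eq_of_mul_eq_mul_right h2
    rw [← h1]; ring
  have hfix : ∀ x : H ⧸ Q, f z x ≠ x := by
    intro x
    induction x using QuotientGroup.induction_on with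
    | H h =>
      intro hx
      have h1 : ((z * h : H) : H ⧸ Q) = (h : H ⧸ Q) := hx
      rw [QuotientGroup.eq] at h1
      apply hQ
      have h2 : (z * h)⁻¹ * h = z := by
        rw [inv_mul_eq_iff_eq_mul, mul_assoc, hz h, ← mul_assoc, hz2, one_mul]
      rwa [h2] at h1
  have hne : f z ≠ 1 := by
    intro h
    have h1 : f z ((1 : H) : H ⧸ Q) = ((1 : H) : H ⧸ Q) := by rw [h]; rfl
    exact hfix _ h1
  have hord : orderOf (f z) = 2 := by
    apply orderOf_eq_prime
    · rw [← map_pow, pow_two, hz2, map_one]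
    · exact hne
  obtain ⟨n, hn⟩ := Equiv.Perm.cycleType_prime_order (σ := f z) (by rw [hord]; exact Nat.prime_two)
  have hsum := Equiv.Perm.sum_cycleType (f z)
  have hsupp : (f z).support = Finset.univ := by
    ext x
    rw [Equiv.Perm.mem_support]
    simp [hfix x]
  have hnm : n + 1 = m := by
    rw [hn, hord, Multiset.sum_replicate, hsupp, Finset.card_univ, hcard, smul_eq_mul] at hsum
    omega
  have hsign : Equiv.Perm.sign (f z) = -1 := by
    rw [Equiv.Perm.sign_of_cycleType, hn, hord, Multiset.sum_replicate, Multiset.card_replicate, hnm, smul_eq_mul]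
    exact Odd.neg_one_pow (by obtain ⟨k, hk⟩ := hm; exact ⟨3 * k + 1, by rw [hk]; ring⟩)
  let χ : H →* ℤˣ := Equiv.Perm.sign.comp f
  have hχz : χ z = -1 := hsign
  refine ⟨χ.ker, Subgroup.isComplement'_of_disjoint_and_mul_eq_univ ?_ ?_⟩
  · rw [Subgroup.disjoint_def]
    intro x hx hx'
    rcases hZ x hx with h | h
    · exact h
    · exfalso
      rw [h, MonoidHom.mem_ker, hχz] at hx'
      exact absurd hx' (by decide)
  · rw [Set.eq_univ_iff_forall]
    intro h
    rcases Int.units_eq_one_or (χ h) with h1 | h1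
    · exact ⟨1, Subgroup.one_mem _, h, h1, one_mul _⟩
    · refine ⟨z, Subgroup.mem_center_iff.2 hz, z * h, ?_, ?_⟩
      · change χ (z * h) = 1
        rw [map_mul, hχz, h1]; rfl
      · change z * (z * h) = h
        rw [← mul_assoc, hz2, one_mul]

theorem dihQ {H G : Type*} [Group H] [Group G] [Finite H] (k : ℕ) (hk : 0 < k) {a r z : H} (ha : a * a = 1) (har : a * r = r⁻¹ * a) (hrk : r ^ k = 1)
    (π : H →* G) (hinj : ∀ i < k, ∀ j < 2, ∀ i' < k, ∀ j' < 2, π r ^ i * π a ^ j = π r ^ i' * π a ^ j' → i = i' ∧ j = j')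
    (hπz : π z = 1) (hz1 : z ≠ 1) : ∃ Q : Subgroup H, z ∉ Q ∧ Nat.card Q = 2 * k := by
  classical
  have har' : ∀ i : ℕ, a * r ^ i = (r⁻¹) ^ i * a := by
    intro i
    induction i with
    | zero => rw [pow_zero, pow_zero, mul_one, one_mul]
    | succ i ih => rw [pow_succ, ← mul_assoc, ih, mul_assoc, har, ← mul_assoc, ← pow_succ]
  have hri : r⁻¹ = r ^ (k - 1) := by
    rw [inv_eq_iff_mul_eq_one, ← pow_succ', Nat.sub_add_cancel hk, hrk]
  have ha2 : ∀ j : ℕ, a ^ j = 1 ∨ a ^ j = a := by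
    intro j
    induction j with
    | zero => left; exact pow_zero _
    | succ j ih =>
      rcases ih with h | h
      · right; rw [pow_succ, h, one_mul]
      · left; rw [pow_succ, h, ha]
  let Q : Subgroup H :=
    { carrier := {h | ∃ i j : ℕ, h = r ^ i * a ^ j}
      one_mem' := ⟨0, 0, by rw [pow_zero, pow_zero, mul_one]⟩
      mul_mem' := by
        rintro _ _ ⟨i, j, rfl⟩ ⟨l, m, rfl⟩
        rcases ha2 j with h | h
        · exact ⟨i + l, m, by rw [h, mul_one, pow_add, mul_assoc]⟩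
        · refine ⟨i + (k - 1) * l, 1 + m, ?_⟩
          rw [h, mul_assoc, ← mul_assoc a, har', hri, ← pow_mul, pow_add, pow_add, pow_one, mul_assoc, mul_assoc]
      inv_mem' := by
        rintro _ ⟨i, j, rfl⟩
        rcases ha2 j with h | h
        · exact ⟨(k - 1) * i, 0, by rw [h, mul_one, pow_zero, mul_one, pow_mul, ← hri, inv_pow]⟩
        · refine ⟨i, 1, ?_⟩
          rw [h, pow_one]
          apply inv_eq_of_mul_eq_one_right
          rw [mul_assoc, ← mul_assoc a, har', mul_assoc, ha, mul_one, inv_pow, mul_inv_cancel] }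
  have hred : ∀ i j : ℕ, r ^ i * a ^ j = r ^ (i % k) * a ^ (j % 2) := by
    intro i j
    have h1 : r ^ i = r ^ (i % k) := by
      conv_lhs => rw [← Nat.mod_add_div i k, pow_add, pow_mul, hrk, one_pow, mul_one]
    have h2 : a ^ j = a ^ (j % 2) := by
      conv_lhs => rw [← Nat.mod_add_div j 2, pow_add, pow_mul, pow_two, ha, one_pow, mul_one]
    rw [h1, h2]
  have hzQ : z ∉ Q := by
    rintro ⟨i, j, hij⟩
    rw [hred] at hij
    have h1 : π r ^ (i % k) * π a ^ (j % 2) = π r ^ 0 * π a ^ 0 := by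
      rw [← map_pow, ← map_pow, ← map_mul, ← hij, hπz, pow_zero, pow_zero, mul_one]
    obtain ⟨h2, h3⟩ := hinj _ (Nat.mod_lt _ hk) _ (Nat.mod_lt _ (by norm_num)) 0 hk 0 (by norm_num) h1
    rw [h2, h3, pow_zero, pow_zero, mul_one] at hij
    exact hz1 hij
  refine ⟨Q, hzQ, ?_⟩
  let g : Fin 2 × Fin k → Q := fun x => ⟨r ^ (x.2 : ℕ) * a ^ (x.1 : ℕ), _, _, rfl⟩
  have hg : Function.Bijective g := by
    constructor
    · rintro ⟨j, i⟩ ⟨j', i'⟩ h
      have h1 : r ^ (i : ℕ) * a ^ (j : ℕ) = r ^ (i' : ℕ) * a ^ (j' : ℕ) := congrArg Subtype.val h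
      have h2 : π r ^ (i : ℕ) * π a ^ (j : ℕ) = π r ^ (i' : ℕ) * π a ^ (j' : ℕ) := by
        rw [← map_pow, ← map_pow, ← map_mul, h1, map_mul, map_pow, map_pow]
      obtain ⟨h3, h4⟩ := hinj _ i.2 _ j.2 _ i'.2 _ j'.2 h2
      rw [Prod.mk.injEq]
      exact ⟨Fin.ext h4, Fin.ext h3⟩
    · rintro ⟨_, i, j, rfl⟩
      exact ⟨(⟨j % 2, Nat.mod_lt _ (by norm_num)⟩, ⟨i % k, Nat.mod_lt _ hk⟩), Subtype.ext (hred i j).symm⟩
  rw [← Nat.card_congr (Equiv.ofBijective g hg), Nat.card_prod, Nat.card_fin, Nat.card_fin]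

/-- involutions are conjugate -/
theorem inv_conj {n : ℕ} (hn : n ≤ 7) (σ τ : alternatingGroup (Fin n)) (hσ : σ * σ = 1) (hσ1 : σ ≠ 1) (hτ : τ * τ = 1) (hτ1 : τ ≠ 1) :
    ∃ g : alternatingGroup (Fin n), τ = g * σ * g⁻¹ := by
  classical
  have key : ∀ σ : alternatingGroup (Fin n), σ * σ = 1 → σ ≠ 1 → (σ : Equiv.Perm (Fin n)).cycleType = Multiset.replicate 2 2 := by
    intro σ hσ hσ1
    have hord : orderOf (σ : Equiv.Perm (Fin n)) = 2 := by
      apply orderOf_eq_prime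
      · rw [pow_two]; exact congrArg Subtype.val hσ
      · exact fun h => hσ1 (Subtype.ext h)
    obtain ⟨m, hm⟩ := Equiv.Perm.cycleType_prime_order (σ := (σ : Equiv.Perm (Fin n))) (by rw [hord]; exact Nat.prime_two)
    rw [hord] at hm
    have hs := Equiv.Perm.sum_cycleType_le (σ : Equiv.Perm (Fin n))
    rw [hm, Multiset.sum_replicate, Fintype.card_fin, smul_eq_mul] at hs
    have hsg := Equiv.Perm.sign_of_cycleType (σ : Equiv.Perm (Fin n))
    rw [Equiv.Perm.mem_alternatingGroup.1 σ.2, hm, Multiset.sum_replicate, Multiset.card_replicate, smul_eq_mul] at hsg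
    have hm2 : m ≤ 2 := by omega
    interval_cases m
    · exact absurd hsg (by decide)
    · exact hm
    · exact absurd hsg (by decide)
  have hc : IsConj (σ : Equiv.Perm (Fin n)) (τ : Equiv.Perm (Fin n)) := by
    rw [Equiv.Perm.isConj_iff_cycleType_eq, key σ hσ hσ1, key τ hτ hτ1]
  obtain ⟨g, hg⟩ := isConj_iff.1 hc
  rcases Int.units_eq_one_or (Equiv.Perm.sign g) with h | h
  · exact ⟨⟨g, Equiv.Perm.mem_alternatingGroup.2 h⟩, Subtype.ext hg.symm⟩
  · have hσ1' : (σ : Equiv.Perm (Fin n)) ≠ 1 := fun h => hσ1 (Subtype.ext h)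
    obtain ⟨x, hx⟩ : ∃ x, (σ : Equiv.Perm (Fin n)) x ≠ x := by
      by_contra hcon
      push Not at hcon
      exact hσ1' (Equiv.ext hcon)
    have hσσ : ∀ y, (σ : Equiv.Perm (Fin n)) ((σ : Equiv.Perm (Fin n)) y) = y := fun y =>
      Equiv.congr_fun (congrArg Subtype.val hσ) y
    set s : Equiv.Perm (Fin n) := Equiv.swap x ((σ : Equiv.Perm (Fin n)) x) with hs
    have hcomm : s * (σ : Equiv.Perm (Fin n)) * s⁻¹ = σ := by
      have h1 : (σ : Equiv.Perm (Fin n)) * s * (σ : Equiv.Perm (Fin n))⁻¹ = s := by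
        rw [hs, ← Equiv.swap_apply_apply, hσσ, Equiv.swap_comm]
      have h2 : (σ : Equiv.Perm (Fin n)) * s = s * σ := mul_inv_eq_iff_eq_mul.1 h1
      rw [← h2, mul_inv_cancel_right]
    refine ⟨⟨g * s, ?_⟩, Subtype.ext ?_⟩
    · rw [Equiv.Perm.mem_alternatingGroup, map_mul, h, hs, Equiv.Perm.sign_swap (Ne.symm hx)]
      decide
    · change (τ : Equiv.Perm (Fin n)) = (g * s) * σ * (g * s)⁻¹
      rw [mul_inv_rev, ← hg]
      calc g * (σ : Equiv.Perm (Fin n)) * g⁻¹ = g * (s * (σ : Equiv.Perm (Fin n)) * s⁻¹) * g⁻¹ := by rw [hcomm]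
        _ = g * s * (σ : Equiv.Perm (Fin n)) * (s⁻¹ * g⁻¹) := by group

theorem part1 (n : ℕ) (H : Type) [Group H] [Finite H] (hn : n ≤ 7) (h : Cfsg.IsNonsplitDoubleCover H (alternatingGroup (Fin n)))
    (x y : H) (hx : orderOf x = 2) (hy : orderOf y = 2) : x = y := by
  obtain ⟨hZ2, ⟨e⟩, hL⟩ := h
  -- the central involution
  obtain ⟨z, hzc, hz1, hzall⟩ : ∃ z : H, z ∈ Subgroup.center H ∧ z ≠ 1 ∧ ∀ x ∈ Subgroup.center H, x = 1 ∨ x = z := by
    obtain ⟨y, hy, hy'⟩ := (Nat.card_eq_two_iff' (1 : Subgroup.center H)).1 hZ2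
    refine ⟨y, y.2, fun h => hy (Subtype.ext h), fun x hx => ?_⟩
    by_cases h1 : x = 1
    · left; exact h1
    · right
      exact congrArg Subtype.val (hy' ⟨x, hx⟩ (fun h => h1 (congrArg Subtype.val h)))
  have hz : ∀ h, h * z = z * h := Subgroup.mem_center_iff.1 hzc
  have hz2 : z * z = 1 := by
    rcases hzall (z * z) (Subgroup.mul_mem _ hzc hzc) with h | h
    · exact h
    · exact absurd (mul_eq_left.1 h) hz1
  let π : H →* alternatingGroup (Fin n) := e.toMonoidHom.comp (QuotientGroup.mk' (Subgroup.center H))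
  have hπs : Function.Surjective π := e.surjective.comp (QuotientGroup.mk'_surjective _)
  have hπ1 : ∀ h, π h = 1 ↔ h = 1 ∨ h = z := by
    intro h
    change e (QuotientGroup.mk' (Subgroup.center H) h) = 1 ↔ _
    rw [EmbeddingLike.map_eq_one_iff]
    constructor
    · intro h1
      exact hzall h ((QuotientGroup.eq_one_iff h).1 h1)
    · rintro (rfl | rfl)
      · exact map_one _
      · exact (QuotientGroup.eq_one_iff _).2 hzc
  have hcH : Nat.card H = 2 * Nat.card (alternatingGroup (Fin n)) := by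
    rw [Subgroup.card_eq_card_quotient_mul_card_subgroup (Subgroup.center H), hZ2, Nat.card_congr e.toEquiv, mul_comm]
  suffices hw : ∀ w : H, orderOf w = 2 → w = z from (hw x hx).trans (hw y hy).symm
  intro w hw
  by_contra hwz
  have hw1 : w ≠ 1 := by
    intro h
    rw [h, orderOf_one] at hw
    exact absurd hw (by norm_num)
  have hw2 : w * w = 1 := by rw [← pow_two, ← hw]; exact pow_orderOf_eq_one w
  have hlift : ∀ h : H, π h * π h = 1 → π h ≠ 1 → h * h = 1 := by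
    intro h h1 h2
    obtain ⟨g, hg⟩ := inv_conj hn (π w) (π h) (by rw [← map_mul, hw2, map_one]) (by
      intro h3
      rcases (hπ1 w).1 h3 with h4 | h4
      · exact hw1 h4
      · exact hwz h4) h1 h2
    obtain ⟨g0, rfl⟩ := hπs g
    have h3 : π (h * (g0 * w * g0⁻¹)⁻¹) = 1 := by
      rw [map_mul, map_inv, map_mul, map_mul, map_inv, ← hg, mul_inv_cancel]
    have h5 : (g0 * w * g0⁻¹) * (g0 * w * g0⁻¹) = 1 := by
      have : (g0 * w * g0⁻¹) * (g0 * w * g0⁻¹) = g0 * (w * w) * g0⁻¹ := by group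
      rw [this, hw2, mul_one, mul_inv_cancel]
    rcases (hπ1 _).1 h3 with h4 | h4
    · rw [mul_inv_eq_one] at h4
      rw [h4, h5]
    · rw [mul_inv_eq_iff_eq_mul] at h4
      rw [h4]
      calc z * (g0 * w * g0⁻¹) * (z * (g0 * w * g0⁻¹)) = (z * ((g0 * w * g0⁻¹) * z)) * (g0 * w * g0⁻¹) := by group
        _ = (z * z) * ((g0 * w * g0⁻¹) * (g0 * w * g0⁻¹)) := by rw [hz (g0 * w * g0⁻¹)]; group
        _ = 1 := by rw [hz2, h5, one_mul]
  have hfin : ∀ (Q : Subgroup H) (m : ℕ), z ∉ Q → Odd m → Nat.card H = 2 * Nat.card Q * m → False := by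
    intro Q m h1 h2 h3
    obtain ⟨L, hL'⟩ := split hz hz1 hz2 hzall Q h1 h2 h3
    exact hL L hL'
  have hsmall : Odd (Nat.card (alternatingGroup (Fin n))) → False := by
    intro h
    refine hfin ⊥ _ (fun h => hz1 (Subgroup.mem_bot.1 h)) h ?_
    rw [hcH, Subgroup.card_bot, mul_one]
  have hdih : ∀ (k m : ℕ) (A B : alternatingGroup (Fin n)), 0 < k → Odd m → A * A = 1 → A ≠ 1 → B * B = 1 → B ≠ 1 →
      (∀ (i : Fin k) (j : Fin 2) (i' : Fin k) (j' : Fin 2), (A * B) ^ (i : ℕ) * A ^ (j : ℕ) = (A * B) ^ (i' : ℕ) * A ^ (j' : ℕ) → i = i' ∧ j = j') →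
      (∃ l, k = l * 2 ∧ (A * B) ^ l * (A * B) ^ l = 1 ∧ (A * B) ^ l ≠ 1) → Nat.card (alternatingGroup (Fin n)) = 2 * k * m → False := by
    rintro k m A B hk hm hA hA1 hB hB1 hAB ⟨l, rfl, hl1, hl2⟩ hc
    obtain ⟨a, rfl⟩ := hπs A
    obtain ⟨b, rfl⟩ := hπs B
    have ha := hlift a hA hA1
    have hb := hlift b hB hB1
    have hr : (a * b) ^ l * (a * b) ^ l = 1 := by
      apply hlift
      · rw [map_pow, map_mul]; exact hl1
      · rw [map_pow, map_mul]; exact hl2
    obtain ⟨Q, hQ1, hQ2⟩ := dihQ (l * 2) hk (a := a) (r := a * b) (z := z) ha (by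
      rw [mul_inv_rev, inv_eq_of_mul_eq_one_right ha, inv_eq_of_mul_eq_one_right hb, mul_assoc b, ha, mul_one, ← mul_assoc, ha, one_mul]) (by
      rw [pow_mul, pow_two, hr]) π (by
        rw [map_mul]
        intro i hi j hj i' hi' j' hj' h
        obtain ⟨h1, h2⟩ := hAB ⟨i, hi⟩ ⟨j, hj⟩ ⟨i', hi'⟩ ⟨j', hj'⟩ h
        exact ⟨congrArg Fin.val h1, congrArg Fin.val h2⟩) ((hπ1 z).2 (Or.inr rfl)) hz1
    refine hfin Q m hQ1 hm ?_
    rw [hcH, hQ2, hc]
    ring
  have hcA : 2 ≤ n → 2 * Nat.card (alternatingGroup (Fin n)) = n.factorial := by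
    intro h
    haveI : Nontrivial (Fin n) := Fin.nontrivial_iff_two_le.2 h
    rw [two_mul_nat_card_alternatingGroup, Nat.card_perm, Nat.card_fin]
  clear hlift hπ1 hπs hcH hL hZ2 hfin
  interval_cases n
  · exact hsmall (by rw [Nat.card_eq_fintype_card]; decide)
  · exact hsmall (by rw [Nat.card_eq_fintype_card]; decide)
  · have h1 := hcA (by norm_num)
    have h2 : Nat.factorial 2 = 2 := rfl
    exact hsmall ⟨0, by omega⟩
  · have h1 := hcA (by norm_num)
    have h2 : Nat.factorial 3 = 6 := rfl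
    exact hsmall ⟨1, by omega⟩
  · have h1 := hcA (by norm_num)
    have h2 : Nat.factorial 4 = 24 := rfl
    exact hdih 2 3 ⟨Equiv.swap 0 1 * Equiv.swap 2 3, Equiv.Perm.mem_alternatingGroup.2 (by decide)⟩
      ⟨Equiv.swap 0 2 * Equiv.swap 1 3, Equiv.Perm.mem_alternatingGroup.2 (by decide)⟩ (by norm_num) ⟨1, rfl⟩ (by decide) (by decide) (by decide) (by decide)
      (by decide) ⟨1, rfl, by decide, by decide⟩ (by omega)
  · have h1 := hcA (by norm_num)
    have h2 : Nat.factorial 5 = 120 := rfl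
    exact hdih 2 15 ⟨Equiv.swap 0 1 * Equiv.swap 2 3, Equiv.Perm.mem_alternatingGroup.2 (by decide)⟩
      ⟨Equiv.swap 0 2 * Equiv.swap 1 3, Equiv.Perm.mem_alternatingGroup.2 (by decide)⟩ (by norm_num) ⟨7, rfl⟩ (by decide) (by decide) (by decide) (by decide)
      (by decide) ⟨1, rfl, by decide, by decide⟩ (by omega)
  · have h1 := hcA (by norm_num)
    have h2 : Nat.factorial 6 = 720 := rfl
    exact hdih 4 45 ⟨Equiv.swap 0 1 * Equiv.swap 4 5, Equiv.Perm.mem_alternatingGroup.2 (by decide)⟩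
      ⟨Equiv.swap 0 2 * Equiv.swap 1 3, Equiv.Perm.mem_alternatingGroup.2 (by decide)⟩ (by norm_num) ⟨22, rfl⟩ (by decide) (by decide) (by decide) (by decide)
      (by decide +kernel) ⟨2, rfl, by decide, by decide⟩ (by omega)
  · have h1 := hcA (by norm_num)
    have h2 : Nat.factorial 7 = 5040 := rfl
    exact hdih 4 315 ⟨Equiv.swap 0 1 * Equiv.swap 4 5, Equiv.Perm.mem_alternatingGroup.2 (by decide)⟩
      ⟨Equiv.swap 0 2 * Equiv.swap 1 3, Equiv.Perm.mem_alternatingGroup.2 (by decide)⟩ (by norm_num) ⟨157, rfl⟩ (by decide) (by decide) (by decide) (by decide)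
      (by decide +kernel) ⟨2, rfl, by decide, by decide⟩ (by omega)

end Cfsg.Agent.H16.DC
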