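import Cfsg.Prelude.Def_SporadicB

/-! A double cover of the alternating group of degree 8. -/

set_option autoImplicit false
set_option linter.style.haveILetI false

namespace Cfsg.Agent.H16.DC

section general

variable {R : Type} [Ring R] {n : ℕ} (e : Fin n → R)

/-- the covering group -/
def cov : Subgroup (Rˣ × alternatingGroup (Fin n)) where
  carrier := {p | ∀ i, (p.1 : R) * e i = e ((p.2 : Equiv.Perm (Fin n)) i) * (p.1 : R)}
  one_mem' := fun i => by
    change (1 : R) * e i = e i * 1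
    rw [one_mul, mul_one]
  mul_mem' := by
    intro p q hp hq i
    change ((p.1 : R) * (q.1 : R)) * e i = e ((p.2 : Equiv.Perm (Fin n)) ((q.2 : Equiv.Perm (Fin n)) i)) * ((p.1 : R) * (q.1 : R))
    rw [mul_assoc, hq i, ← mul_assoc, hp, mul_assoc]
  inv_mem' := by
    intro p hp i
    have h1 := hp (((p.2 : Equiv.Perm (Fin n))⁻¹) i)
    have h0 : (p.2 : Equiv.Perm (Fin n)) (((p.2 : Equiv.Perm (Fin n))⁻¹) i) = i := Equiv.apply_symm_apply _ i
    rw [h0] at h1
    change ((p.1⁻¹ : Rˣ) : R) * e i = e (((p.2 : Equiv.Perm (Fin n))⁻¹) i) * ((p.1⁻¹ : Rˣ) : R)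
    rw [Units.eq_mul_inv_iff_mul_eq, mul_assoc, Units.inv_mul_eq_iff_eq_mul, h1]

variable {e}

variable (hee : ∀ i, e i * e i = 1) (hac : ∀ i j, i ≠ j → e i * e j = -(e j * e i)) (h3 : (3 : R) = 0)

include hee hac in
theorem t_mul {a b : Fin n} (hab : a ≠ b) (i : Fin n) : (e a - e b) * e i = -(e (Equiv.swap a b i) * (e a - e b)) := by
  by_cases h1 : i = a
  · subst h1
    rw [Equiv.swap_apply_left, sub_mul, mul_sub, hee, hee, hac b i hab.symm]
    abel
  · by_cases h2 : i = b
    · subst h2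
      rw [Equiv.swap_apply_right, sub_mul, mul_sub, hee, hee, hac a i hab]
      abel
    · rw [Equiv.swap_apply_of_ne_of_ne h1 h2, sub_mul, mul_sub, hac a i (Ne.symm h1), hac b i (Ne.symm h2)]
      abel

include hee hac h3 in
theorem t_sq {a b : Fin n} (hab : a ≠ b) : (e a - e b) * (e a - e b) = -1 := by
  rw [sub_mul, mul_sub, mul_sub, hee, hee, hac a b hab]
  have h2 : (1 : R) + 1 = -1 := by
    have : (1 : R) + 1 + 1 = 3 := by norm_num
    rw [h3] at this
    exact eq_neg_of_add_eq_zero_left this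
  have : (1 : R) - -(e b * e a) - (e b * e a - 1) = 1 + 1 := by abel
  rw [this, h2]

include hee hac h3 in
theorem exists_lift (σ : Equiv.Perm (Fin n)) : ∃ M : Rˣ, ∀ i, (M : R) * e i = ((Equiv.Perm.sign σ : ℤ) : R) * (e (σ i) * (M : R)) := by
  classical
  induction σ using Equiv.Perm.swap_induction_on with
  | one => exact ⟨1, fun i => by simp⟩
  | swap_mul f a b hab ih =>
    obtain ⟨M, hM⟩ := ih
    have hsq := t_sq hee hac h3 hab
    let t : Rˣ := ⟨e a - e b, -(e a - e b), by rw [mul_neg, hsq, neg_neg], by rw [neg_mul, hsq, neg_neg]⟩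
    refine ⟨t * M, fun i => ?_⟩
    have ht : (t : R) = e a - e b := rfl
    rw [Units.val_mul, mul_assoc, hM, ht, Equiv.Perm.sign_mul, Equiv.Perm.sign_swap hab, neg_one_mul, Units.val_neg, Int.cast_neg]
    rw [(Int.cast_commute _ _).symm.left_comm, ← mul_assoc (e a - e b), t_mul hee hac hab]
    change _ = -((Equiv.Perm.sign f : ℤ) : R) * (e (Equiv.swap a b (f i)) * ((e a - e b) * (M : R)))
    rw [neg_mul, neg_mul, mul_neg, mul_assoc]

include hac in
theorem t_anti {a b c d : Fin n} (h1 : a ≠ c) (h2 : a ≠ d) (h4 : b ≠ c) (h5 : b ≠ d) :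
    (e a - e b) * (e c - e d) = -((e c - e d) * (e a - e b)) := by
  rw [sub_mul, mul_sub, mul_sub, sub_mul, mul_sub, mul_sub, hac a c h1, hac a d h2, hac b c h4, hac b d h5]
  abel

end general

/-- sign character -/
def cc (z s : Fin 16) : ZMod 3 :=
  if (xor (xor (z.val.testBit 0 && s.val.testBit 0) (z.val.testBit 1 && s.val.testBit 1))
    (xor (z.val.testBit 2 && s.val.testBit 2) (z.val.testBit 3 && s.val.testBit 3))) = true then -1 else 1

theorem xa : ∀ a b c : Fin 16, (a ^^^ b) ^^^ c = a ^^^ (b ^^^ c) := by decide +kernel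

theorem cc_right : ∀ z s t : Fin 16, cc z (s ^^^ t) = cc z s * cc z t := by decide +kernel

theorem cc_left : ∀ z z' s : Fin 16, cc (z ^^^ z') s = cc z s * cc z' s := by decide +kernel

theorem cc_sq : ∀ z s : Fin 16, cc z s * cc z s = 1 := by decide +kernel

abbrev V16 := Fin 16 → ZMod 3

abbrev R16 := Module.End (ZMod 3) V16

/-- Pauli words -/
def L (x z : Fin 16) : R16 where
  toFun f s := cc z s * f (s ^^^ x)
  map_add' f g := by funext s; exact mul_add _ _ _
  map_smul' c f := by funext s; exact mul_left_comm _ _ _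

theorem L_apply (x z : Fin 16) (f : V16) (s : Fin 16) : L x z f s = cc z s * f (s ^^^ x) := rfl

theorem L_mul (x z x' z' : Fin 16) : L x z * L x' z' = cc z' x • L (x ^^^ x') (z ^^^ z') := by
  apply LinearMap.ext
  intro f
  funext s
  change cc z s * (cc z' (s ^^^ x) * f ((s ^^^ x) ^^^ x')) = cc z' x * (cc (z ^^^ z') s * f (s ^^^ (x ^^^ x')))
  rw [xa, cc_right, cc_left]
  ring

theorem L_one : L 0 0 = 1 := by
  apply LinearMap.ext
  intro f
  funext s
  have h1 : ∀ s : Fin 16, cc 0 s = 1 := by decide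
  have h2 : ∀ s : Fin 16, s ^^^ 0 = s := by decide
  rw [L_apply, h1, h2, one_mul]
  rfl

/-- the masks -/
def ms : Fin 8 → Fin 16 × Fin 16 := ![(0, 1), (1, 0), (3, 3), (5, 7), (7, 13), (9, 15), (11, 9), (13, 11)]

/-- the generators -/
def ev (i : Fin 8) : R16 := L (ms i).1 (ms i).2

theorem ev_sq (i : Fin 8) : ev i * ev i = 1 := by
  have h1 : ∀ i, cc (ms i).2 (ms i).1 = 1 := by decide
  have h2 : ∀ i, (ms i).1 ^^^ (ms i).1 = 0 := by decide
  have h3 : ∀ i, (ms i).2 ^^^ (ms i).2 = 0 := by decide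
  rw [ev, L_mul, h1, h2, h3, one_smul, L_one]

theorem ev_anti (i j : Fin 8) (hij : i ≠ j) : ev i * ev j = -(ev j * ev i) := by
  have h1 : ∀ i j, i ≠ j → cc (ms j).2 (ms i).1 = -cc (ms i).2 (ms j).1 := by decide
  have h2 : ∀ i j, (ms i).1 ^^^ (ms j).1 = (ms j).1 ^^^ (ms i).1 := by decide
  have h3 : ∀ i j, (ms i).2 ^^^ (ms j).2 = (ms j).2 ^^^ (ms i).2 := by decide
  rw [ev, ev, L_mul, L_mul, h1 i j hij, h2 i j, h3 i j]
  exact neg_smul (cc (ms i).2 (ms j).1) (L ((ms j).1 ^^^ (ms i).1) ((ms j).2 ^^^ (ms i).2))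

theorem three16 : (3 : R16) = 0 := by
  have h1 : (3 : R16) = algebraMap (ZMod 3) R16 3 := by rw [map_ofNat]
  rw [h1, show (3 : ZMod 3) = 0 from rfl, map_zero]

/-- fold of the masks -/
def fx (l : List (Fin 8)) : Fin 16 := l.foldr (fun i a => (ms i).1 ^^^ a) 0

def fz (l : List (Fin 8)) : Fin 16 := l.foldr (fun i a => (ms i).2 ^^^ a) 0

theorem comm_scalar (M : R16) (hM : ∀ i, M * ev i = ev i * M) : ∃ c : ZMod 3, M = c • 1 := by
  have hP : ∀ x z x' z', Commute M (L x z) → Commute M (L x' z') → Commute M (L (x ^^^ x') (z ^^^ z')) := by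
    intro x z x' z' h h'
    have h1 : L (x ^^^ x') (z ^^^ z') = cc z' x • (L x z * L x' z') := by
      rw [L_mul, smul_smul, cc_sq, one_smul]
    rw [h1]
    exact (h.mul_right h').smul_right _
  have h0 : Commute M (L 0 0) := by rw [L_one]; exact Commute.one_right M
  have hl : ∀ l, Commute M (L (fx l) (fz l)) := by
    intro l
    induction l with
    | nil => exact h0
    | cons i l ih => exact hP _ _ _ _ (hM i) ih
  have z1 : Commute M (L 0 1) := hl [0]
  have z2 : Commute M (L 0 2) := hl [0, 1, 3, 5, 7]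
  have z4 : Commute M (L 0 4) := hl [0, 1, 2, 5, 6]
  have z8 : Commute M (L 0 8) := hl [0, 1, 2, 3, 4]
  have x1 : Commute M (L 1 0) := hl [1]
  have x2 : Commute M (L 2 0) := hl [2, 3, 5, 7]
  have x4 : Commute M (L 4 0) := hl [0, 1, 2, 6, 7]
  have x8 : Commute M (L 8 0) := hl [4, 5, 6, 7]
  have hx : ∀ x, Commute M (L x 0) := by
    intro x
    have e0 : ∀ x : Fin 16, (x &&& 1) ^^^ ((x &&& 2) ^^^ ((x &&& 4) ^^^ (x &&& 8))) = x := by decide
    have e1 : ∀ x : Fin 16, x &&& 1 = 0 ∨ x &&& 1 = 1 := by decide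
    have e2 : ∀ x : Fin 16, x &&& 2 = 0 ∨ x &&& 2 = 2 := by decide
    have e4 : ∀ x : Fin 16, x &&& 4 = 0 ∨ x &&& 4 = 4 := by decide
    have e8 : ∀ x : Fin 16, x &&& 8 = 0 ∨ x &&& 8 = 8 := by decide
    have f1 : Commute M (L (x &&& 1) 0) := by rcases e1 x with h | h <;> rw [h] <;> assumption
    have f2 : Commute M (L (x &&& 2) 0) := by rcases e2 x with h | h <;> rw [h] <;> assumption
    have f4 : Commute M (L (x &&& 4) 0) := by rcases e4 x with h | h <;> rw [h] <;> assumption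
    have f8 : Commute M (L (x &&& 8) 0) := by rcases e8 x with h | h <;> rw [h] <;> assumption
    have h1 := hP _ _ _ _ f1 (hP _ _ _ _ f2 (hP _ _ _ _ f4 f8))
    rw [e0] at h1
    exact h1
  set w := M (Pi.single 0 1) with hw
  have hfix : ∀ k, Commute M (L 0 k) → ∀ s, cc k s * w s = w s := by
    intro k hk s
    have h1 : L 0 k (Pi.single 0 1) = Pi.single 0 1 := by
      funext t
      have h2 : ∀ t : Fin 16, t ^^^ 0 = t := by decide
      rw [L_apply, h2]
      by_cases ht : t = 0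
      · subst ht
        have h3 : ∀ k, cc k 0 = 1 := by decide
        rw [h3, one_mul]
      · rw [Pi.single_eq_of_ne ht, mul_zero]
    have h2 : L 0 k w = w := by
      rw [hw]
      conv_rhs => rw [← h1]
      exact (LinearMap.congr_fun hk.eq (Pi.single 0 1)).symm
    have h3 := congrFun h2 s
    have h4 : ∀ t : Fin 16, t ^^^ 0 = t := by decide
    rw [L_apply, h4] at h3
    exact h3
  have hw0 : ∀ s, s ≠ 0 → w s = 0 := by
    intro s hs
    have h1 : ∀ s : Fin 16, s ≠ 0 → cc 1 s = -1 ∨ cc 2 s = -1 ∨ cc 4 s = -1 ∨ cc 8 s = -1 := by decide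
    have h2 : ∀ a : ZMod 3, -1 * a = a → a = 0 := by decide
    apply h2
    rcases h1 s hs with h | h | h | h
    · rw [← h]; exact hfix 1 z1 s
    · rw [← h]; exact hfix 2 z2 s
    · rw [← h]; exact hfix 4 z4 s
    · rw [← h]; exact hfix 8 z8 s
  have hwc : w = w 0 • Pi.single 0 1 := by
    funext s
    rw [Pi.smul_apply, smul_eq_mul]
    by_cases hs : s = 0
    · subst hs; rw [Pi.single_eq_same, mul_one]
    · rw [hw0 s hs, Pi.single_eq_of_ne hs, mul_zero]
  have hL0 : ∀ s, L s 0 (Pi.single 0 1) = Pi.single s 1 := by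
    intro s
    funext t
    have h1 : ∀ s : Fin 16, cc 0 s = 1 := by decide
    have h2 : ∀ s t : Fin 16, t ^^^ s = 0 ↔ t = s := by decide
    rw [L_apply, h1, one_mul]
    by_cases ht : t = s
    · rw [(h2 s t).2 ht, ht, Pi.single_eq_same, Pi.single_eq_same]
    · rw [Pi.single_eq_of_ne ht, Pi.single_eq_of_ne (fun h => ht ((h2 s t).1 h))]
  refine ⟨w 0, ?_⟩
  apply LinearMap.pi_ext
  intro s a
  have h1 : (Pi.single s a : V16) = a • Pi.single s 1 := by
    funext t
    rw [Pi.smul_apply, smul_eq_mul]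
    by_cases ht : t = s
    · subst ht; rw [Pi.single_eq_same, Pi.single_eq_same, mul_one]
    · rw [Pi.single_eq_of_ne ht, Pi.single_eq_of_ne ht, mul_zero]
  have h2 : M (Pi.single s 1) = w 0 • Pi.single s 1 := by
    rw [← hL0 s]
    have h3 := LinearMap.congr_fun (hx s).eq (Pi.single 0 1)
    rw [Module.End.mul_apply, Module.End.mul_apply, ← hw, hwc, map_smul] at h3
    exact h3
  rw [h1, map_smul, h2, LinearMap.smul_apply, Module.End.one_apply, smul_comm]

end Cfsg.Agent.H16.DC
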