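import Cfsg.Agent.H16_DC1
import Cfsg.Agent.H16_DC2

/-! A double cover of the alternating group of degree 8: the group. -/

set_option autoImplicit false
set_option linter.style.haveILetI false

namespace Cfsg.Agent.H16.DC

section abs

variable {R : Type} [Ring R] {e : Fin 8 → R}

/-- the central involution -/
def zz (e : Fin 8 → R) : cov e := ⟨(-1, 1), fun i => by
  change (-1 : R) * e i = e i * (-1 : R)
  rw [neg_one_mul, mul_neg_one]⟩

theorem zz_ne (hne : (-1 : R) ≠ 1) : zz e ≠ 1 := by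
  intro h
  have h1 : (-1 : R) = 1 := congrArg (fun g : cov e => (g.1.1 : R)) h
  exact hne h1

theorem zz_sq : zz e * zz e = 1 := by
  apply Subtype.ext
  apply Prod.ext
  · apply Units.ext
    change (-1 : R) * (-1) = 1
    rw [neg_mul_neg, one_mul]
  · change (1 : alternatingGroup (Fin 8)) * 1 = 1
    rw [one_mul]

/-- the projection -/
def pr (e : Fin 8 → R) : cov e →* alternatingGroup (Fin 8) := (MonoidHom.snd _ _).comp (cov e).subtype

variable (hee : ∀ i, e i * e i = 1) (hac : ∀ i j, i ≠ j → e i * e j = -(e j * e i)) (h3 : (3 : R) = 0) (hne : (-1 : R) ≠ 1)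
  (hcom : ∀ M : R, (∀ i, M * e i = e i * M) → M = 0 ∨ M = 1 ∨ M = -1)

include hee hac h3 in
theorem pr_surj : Function.Surjective (pr e) := by
  intro σ
  obtain ⟨M, hM⟩ := exists_lift hee hac h3 (σ : Equiv.Perm (Fin 8))
  refine ⟨⟨(M, σ), fun i => ?_⟩, rfl⟩
  have h1 := hM i
  rw [Equiv.Perm.mem_alternatingGroup.1 σ.2, Units.val_one, Int.cast_one, one_mul] at h1
  exact h1

include hne hcom in
theorem pr_ker (g : cov e) (hg : pr e g = 1) : g = 1 ∨ g = zz e := by
  obtain ⟨⟨M, σ⟩, h⟩ := g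
  obtain rfl : σ = 1 := hg
  rcases hcom (M : R) (fun i => h i) with h1 | h1 | h1
  · exfalso
    have h2 : (M : R) * (M⁻¹ : Rˣ) = 1 := M.mul_inv
    rw [h1, zero_mul] at h2
    apply hne
    rw [← h2, neg_zero]
  · left
    apply Subtype.ext
    exact Prod.ext (Units.ext h1) rfl
  · right
    apply Subtype.ext
    exact Prod.ext (Units.ext h1) rfl

include hee hac h3 hne hcom in
theorem center_iff (g : cov e) : g ∈ Subgroup.center (cov e) ↔ pr e g = 1 := by
  constructor
  · intro h
    have h1 : pr e g ∈ Subgroup.center (alternatingGroup (Fin 8)) := by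
      rw [Subgroup.mem_center_iff]
      intro σ
      obtain ⟨k, rfl⟩ := pr_surj hee hac h3 σ
      rw [← map_mul, ← map_mul, Subgroup.mem_center_iff.1 h k]
    rw [alternatingGroup.center_eq_bot (by rw [Nat.card_fin]; norm_num), Subgroup.mem_bot] at h1
    exact h1
  · intro h
    rcases pr_ker hne hcom g h with rfl | rfl
    · exact Subgroup.one_mem _
    · rw [Subgroup.mem_center_iff]
      intro k
      apply Subtype.ext
      apply Prod.ext
      · apply Units.ext
        change (k.1.1 : R) * (-1) = (-1) * (k.1.1 : R)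
        rw [neg_one_mul, mul_neg_one]
      · change k.1.2 * 1 = 1 * k.1.2
        rw [mul_one, one_mul]

include hee hac h3 hne hcom in
theorem center_card : Nat.card (Subgroup.center (cov e)) = 2 := by
  rw [Nat.card_eq_two_iff' (1 : Subgroup.center (cov e))]
  refine ⟨⟨zz e, (center_iff hee hac h3 hne hcom (zz e)).2 rfl⟩, fun h => zz_ne hne (congrArg Subtype.val h), ?_⟩
  rintro ⟨g, hg⟩ h
  apply Subtype.ext
  rcases pr_ker hne hcom g ((center_iff hee hac h3 hne hcom g).1 hg) with h1 | h1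
  · exact absurd (Subtype.ext h1) h
  · exact h1

include hee hac h3 in
theorem exists_tt (a b c d : Fin 8) (hab : a ≠ b) (hcd : c ≠ d) (h1 : a ≠ c) (h2 : a ≠ d) (h4 : b ≠ c) (h5 : b ≠ d) :
    ∃ g : cov e, (g.1.1 : R) = (e a - e b) * (e c - e d) ∧ (g.1.2 : Equiv.Perm (Fin 8)) = Equiv.swap a b * Equiv.swap c d := by
  have hs1 := t_sq hee hac h3 hab
  have hs2 := t_sq hee hac h3 hcd
  let u : Rˣ := ⟨e a - e b, -(e a - e b), by rw [mul_neg, hs1, neg_neg], by rw [neg_mul, hs1, neg_neg]⟩
  let v : Rˣ := ⟨e c - e d, -(e c - e d), by rw [mul_neg, hs2, neg_neg], by rw [neg_mul, hs2, neg_neg]⟩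
  refine ⟨⟨(u * v, ⟨Equiv.swap a b * Equiv.swap c d, ?_⟩), fun i => ?_⟩, rfl, rfl⟩
  · rw [Equiv.Perm.mem_alternatingGroup, map_mul, Equiv.Perm.sign_swap hab, Equiv.Perm.sign_swap hcd]; decide
  · change ((e a - e b) * (e c - e d)) * e i = e (Equiv.swap a b (Equiv.swap c d i)) * ((e a - e b) * (e c - e d))
    rw [mul_assoc, t_mul hee hac hcd, mul_neg, ← mul_assoc, t_mul hee hac hab, neg_mul, neg_neg, mul_assoc]

include hee hac h3 in
theorem val_sq {a b c d : Fin 8} (hab : a ≠ b) (hcd : c ≠ d) (h1 : a ≠ c) (h2 : a ≠ d) (h4 : b ≠ c) (h5 : b ≠ d) :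
    ((e a - e b) * (e c - e d)) * ((e a - e b) * (e c - e d)) = -1 := by
  have hs1 := t_sq hee hac h3 hab
  have hs2 := t_sq hee hac h3 hcd
  have h6 := t_anti hac h1 h2 h4 h5
  generalize e a - e b = u at hs1 h6 ⊢
  generalize e c - e d = v at hs2 h6 ⊢
  have h7 : v * u = -(u * v) := by rw [h6, neg_neg]
  rw [mul_assoc, ← mul_assoc v, h7, neg_mul, mul_neg, mul_assoc, hs2, mul_neg_one, mul_neg, hs1, neg_neg]

theorem swap_sq {a b c d : Fin 8} (h1 : a ≠ c) (h2 : a ≠ d) (h4 : b ≠ c) (h5 : b ≠ d) :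
    (Equiv.swap a b * Equiv.swap c d) * (Equiv.swap a b * Equiv.swap c d) = 1 := by
  have h7 : Equiv.swap a b * Equiv.swap c d = Equiv.swap c d * Equiv.swap a b := by
    have h6 : (Equiv.swap a b).Disjoint (Equiv.swap c d) := by
      intro x
      by_cases hxa : x = a
      · right; rw [hxa]; exact Equiv.swap_apply_of_ne_of_ne h1 h2
      · by_cases hxb : x = b
        · right; rw [hxb]; exact Equiv.swap_apply_of_ne_of_ne h4 h5
        · left; exact Equiv.swap_apply_of_ne_of_ne hxa hxb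
    exact h6.commute.eq
  calc (Equiv.swap a b * Equiv.swap c d) * (Equiv.swap a b * Equiv.swap c d)
      = (Equiv.swap a b * Equiv.swap c d) * (Equiv.swap c d * Equiv.swap a b) := by rw [← h7]
    _ = 1 := by rw [mul_assoc, ← mul_assoc (Equiv.swap c d), Equiv.swap_mul_self, one_mul, Equiv.swap_mul_self]

include hee hac h3 hne hcom in
theorem gen [Finite Rˣ] : ∃ (H : Type) (_ : Group H) (_ : Finite H), Cfsg.IsNonsplitDoubleCover H (alternatingGroup (Fin 8)) ∧
    ∃ x y : H, x ≠ y ∧ orderOf x = 2 ∧ orderOf y = 2 := by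
  obtain ⟨g, hg1, hg2⟩ := exists_tt hee hac h3 0 1 2 3 (by decide) (by decide) (by decide) (by decide) (by decide) (by decide)
  obtain ⟨k, hk1, hk2⟩ := exists_tt hee hac h3 4 5 6 7 (by decide) (by decide) (by decide) (by decide) (by decide) (by decide)
  have hvg := val_sq hee hac h3 (a := 0) (b := 1) (c := 2) (d := 3) (by decide) (by decide) (by decide) (by decide) (by decide) (by decide)
  have hvk := val_sq hee hac h3 (a := 4) (b := 5) (c := 6) (d := 7) (by decide) (by decide) (by decide) (by decide) (by decide) (by decide)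
  have hgg : g * g = zz e := by
    apply Subtype.ext
    apply Prod.ext
    · apply Units.ext
      change (g.1.1 : R) * (g.1.1 : R) = -1
      rw [hg1, hvg]
    · apply Subtype.ext
      change (g.1.2 : Equiv.Perm (Fin 8)) * (g.1.2 : Equiv.Perm (Fin 8)) = 1
      rw [hg2]
      exact swap_sq (by decide) (by decide) (by decide) (by decide)
  have hkk : k * k = zz e := by
    apply Subtype.ext
    apply Prod.ext
    · apply Units.ext
      change (k.1.1 : R) * (k.1.1 : R) = -1
      rw [hk1, hvk]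
    · apply Subtype.ext
      change (k.1.2 : Equiv.Perm (Fin 8)) * (k.1.2 : Equiv.Perm (Fin 8)) = 1
      rw [hk2]
      exact swap_sq (by decide) (by decide) (by decide) (by decide)
  have hgk : g * k = k * g := by
    apply Subtype.ext
    apply Prod.ext
    · apply Units.ext
      change (g.1.1 : R) * (k.1.1 : R) = (k.1.1 : R) * (g.1.1 : R)
      rw [hg1, hk1]
      have a1 := t_anti hac (show (0 : Fin 8) ≠ 4 by decide) (show (0 : Fin 8) ≠ 5 by decide) (show (1 : Fin 8) ≠ 4 by decide) (show (1 : Fin 8) ≠ 5 by decide)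
      have a2 := t_anti hac (show (2 : Fin 8) ≠ 4 by decide) (show (2 : Fin 8) ≠ 5 by decide) (show (3 : Fin 8) ≠ 4 by decide) (show (3 : Fin 8) ≠ 5 by decide)
      have a3 := t_anti hac (show (0 : Fin 8) ≠ 6 by decide) (show (0 : Fin 8) ≠ 7 by decide) (show (1 : Fin 8) ≠ 6 by decide) (show (1 : Fin 8) ≠ 7 by decide)
      have a4 := t_anti hac (show (2 : Fin 8) ≠ 6 by decide) (show (2 : Fin 8) ≠ 7 by decide) (show (3 : Fin 8) ≠ 6 by decide) (show (3 : Fin 8) ≠ 7 by decide)
      generalize e 0 - e 1 = u at a1 a3 ⊢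
      generalize e 2 - e 3 = v at a2 a4 ⊢
      generalize e 4 - e 5 = u' at a1 a2 ⊢
      generalize e 6 - e 7 = v' at a3 a4 ⊢
      calc u * v * (u' * v') = u * (v * u') * v' := by simp only [mul_assoc]
        _ = -((u * u') * (v * v')) := by rw [a2]; simp only [mul_neg, neg_mul, mul_assoc]
        _ = -((u' * u) * (v' * v)) := by rw [a1, a4, neg_mul_neg]
        _ = -(u' * (u * v') * v) := by simp only [mul_assoc]
        _ = u' * v' * (u * v) := by rw [a3]; simp only [mul_neg, neg_mul, neg_neg, mul_assoc]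
    · apply Subtype.ext
      change (g.1.2 : Equiv.Perm (Fin 8)) * (k.1.2 : Equiv.Perm (Fin 8)) = (k.1.2 : Equiv.Perm (Fin 8)) * (g.1.2 : Equiv.Perm (Fin 8))
      rw [hg2, hk2]
      decide
  have hne1 : zz e ≠ g * k := by
    intro h
    have h1 : (1 : Equiv.Perm (Fin 8)) = (g.1.2 : Equiv.Perm (Fin 8)) * (k.1.2 : Equiv.Perm (Fin 8)) :=
      congrArg (fun x : cov e => (x.1.2 : Equiv.Perm (Fin 8))) h
    rw [hg2, hk2] at h1
    exact absurd h1 (by decide)
  haveI : Finite (cov e) := inferInstance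
  refine ⟨cov e, inferInstance, inferInstance, ⟨center_card hee hac h3 hne hcom, ?_, ?_⟩, ?_⟩
  · have h1 : Subgroup.center (cov e) = (pr e).ker := by
      ext g
      rw [center_iff hee hac h3 hne hcom, MonoidHom.mem_ker]
    exact ⟨(QuotientGroup.quotientMulEquivOfEq h1).trans (QuotientGroup.quotientKerEquivOfSurjective (pr e) (pr_surj hee hac h3))⟩
  · intro Lc hL
    obtain ⟨c, hc, l, hl, hcl⟩ : ∃ c ∈ Subgroup.center (cov e), ∃ l ∈ Lc, c * l = g := by
      obtain ⟨⟨⟨c, hc⟩, ⟨l, hl⟩⟩, h⟩ := hL.2 g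
      exact ⟨c, hc, l, hl, h⟩
    have hc2 : c * c = 1 := by
      rcases pr_ker hne hcom c ((center_iff hee hac h3 hne hcom c).1 hc) with rfl | rfl
      · exact one_mul 1
      · exact zz_sq
    have h4 : l * l = zz e := by
      rw [← hgg, ← hcl]
      have h5 := Subgroup.mem_center_iff.1 hc l
      calc l * l = (c * c) * (l * l) := by rw [hc2, one_mul]
        _ = c * (c * l) * l := by simp only [mul_assoc]
        _ = c * (l * c) * l := by rw [h5]
        _ = c * l * (c * l) := by simp only [mul_assoc]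
    have h5 : zz e ∈ Lc := by rw [← h4]; exact Subgroup.mul_mem _ hl hl
    have h6 : zz e ∈ Subgroup.center (cov e) := (center_iff hee hac h3 hne hcom (zz e)).2 rfl
    have h7 := Subgroup.disjoint_def.1 hL.disjoint h6 h5
    exact zz_ne hne h7
  · refine ⟨zz e, g * k, hne1, orderOf_eq_prime (by rw [pow_two, zz_sq]) (zz_ne hne), orderOf_eq_prime ?_ ?_⟩
    · calc (g * k) ^ 2 = g * (k * g) * k := by rw [pow_two]; simp only [mul_assoc]
        _ = g * (g * k) * k := by rw [hgk]
        _ = (g * g) * (k * k) := by simp only [mul_assoc]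
        _ = 1 := by rw [hgg, hkk, zz_sq]
    · intro h
      have h1 : (g.1.2 : Equiv.Perm (Fin 8)) * (k.1.2 : Equiv.Perm (Fin 8)) = 1 :=
        congrArg (fun x : cov e => (x.1.2 : Equiv.Perm (Fin 8))) h
      rw [hg2, hk2] at h1
      exact absurd h1 (by decide)

end abs

instance fin16 : Finite R16 := Finite.of_injective (fun M : R16 => (M : V16 → V16)) DFunLike.coe_injective

instance finU16 : Finite R16ˣ := Finite.of_injective Units.val Units.val_injective

theorem neg_ne : (-1 : R16) ≠ 1 := by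
  intro h
  have h1 := congrFun (LinearMap.congr_fun h (Pi.single 0 1)) 0
  change -(Pi.single (0 : Fin 16) (1 : ZMod 3) : V16) 0 = (Pi.single (0 : Fin 16) (1 : ZMod 3) : V16) 0 at h1
  rw [Pi.single_eq_same] at h1
  exact absurd h1 (by decide)

theorem com16 (M : R16) (hM : ∀ i, M * ev i = ev i * M) : M = 0 ∨ M = 1 ∨ M = -1 := by
  obtain ⟨c, rfl⟩ := comm_scalar M hM
  have hc3 : ∀ c : ZMod 3, c = 0 ∨ c = 1 ∨ c = -1 := by decide
  rcases hc3 c with rfl | rfl | rfl
  · left; exact zero_smul _ _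
  · right; left; exact one_smul _ _
  · right; right
    exact (neg_smul (1 : ZMod 3) (1 : R16)).trans (congrArg Neg.neg (one_smul _ _))

theorem part2 : ∃ (H : Type) (_ : Group H) (_ : Finite H), Cfsg.IsNonsplitDoubleCover H (alternatingGroup (Fin 8)) ∧
    ∃ x y : H, x ≠ y ∧ orderOf x = 2 ∧ orderOf y = 2 := gen ev_sq ev_anti three16 neg_ne com16

end Cfsg.Agent.H16.DC
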