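import Mathlib

set_option autoImplicit false

/-! Dihedral groups of order eight; split extensions by odd cyclic groups. -/

namespace Cfsg.Agent.H16.Dih

variable {M : Type*} [Group M]

theorem pow_val_add {c : M} (hc : orderOf c = 4) (i j : ZMod 4) : c ^ (i + j).val = c ^ i.val * c ^ j.val := by
  have h := pow_mod_orderOf c (i.val + j.val)
  rw [hc] at h
  rw [ZMod.val_add, h, pow_add]

theorem pow_val_sub {c : M} (hc : orderOf c = 4) (i j : ZMod 4) : c ^ (i - j).val = c ^ i.val * (c ^ j.val)⁻¹ := by
  rw [eq_mul_inv_iff_mul_eq, ← pow_val_add hc, sub_add_cancel]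

theorem swap_pow {c a : M} (ha : a * a = 1) (h : a * c * a = c⁻¹) (k : ℕ) : c ^ k * a = a * (c ^ k)⁻¹ := by
  have h1 : c * a = a * c⁻¹ := by
    rw [← h, ← mul_assoc, ← mul_assoc, ha, one_mul]
  induction k with
  | zero => simp
  | succ k ih =>
    calc c ^ (k + 1) * a = c ^ k * (c * a) := by rw [pow_succ, mul_assoc]
      _ = c ^ k * a * c⁻¹ := by rw [h1, mul_assoc]
      _ = a * ((c ^ k)⁻¹ * c⁻¹) := by rw [ih, mul_assoc]
      _ = a * (c ^ (k + 1))⁻¹ := by rw [← mul_inv_rev, ← pow_succ']

/-- recognition of the dihedral group of order eight. -/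
theorem dihedral_of (hcard : Nat.card M = 8) {c a : M} (hc : orderOf c = 4) (ha : a * a = 1)
    (hac : a ∉ Subgroup.zpowers c) (h : a * c * a = c⁻¹) : Nonempty (DihedralGroup 4 ≃* M) := by
  let f : DihedralGroup 4 →* M :=
    { toFun := fun x => match x with
        | DihedralGroup.r i => c ^ i.val
        | DihedralGroup.sr i => a * c ^ i.val
      map_one' := by
        change c ^ (0 : ZMod 4).val = 1
        rw [ZMod.val_zero, pow_zero]
      map_mul' := by
        rintro (i | i) (j | j)
        · change c ^ (i + j).val = _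
          exact pow_val_add hc i j
        · change a * c ^ (j - i).val = c ^ i.val * (a * c ^ j.val)
          rw [← mul_assoc, swap_pow ha h, sub_eq_neg_add, pow_val_add hc, mul_assoc]
          congr 2
          have := pow_val_sub hc 0 i
          rw [zero_sub, ZMod.val_zero, pow_zero, one_mul] at this
          exact this
        · change a * c ^ (i + j).val = a * c ^ i.val * c ^ j.val
          rw [pow_val_add hc, mul_assoc]
        · change c ^ (j - i).val = a * c ^ i.val * (a * c ^ j.val)
          rw [mul_assoc, ← mul_assoc (c ^ i.val), swap_pow ha h, ← mul_assoc, ← mul_assoc, ha, one_mul,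
            sub_eq_neg_add, pow_val_add hc]
          congr 1
          have := pow_val_sub hc 0 i
          rw [zero_sub, ZMod.val_zero, pow_zero, one_mul] at this
          exact this }
  have hinj : Function.Injective f := by
    rw [injective_iff_map_eq_one]
    rintro (i | i) hi
    · change c ^ i.val = 1 at hi
      have h1 := orderOf_dvd_of_pow_eq_one hi
      rw [hc] at h1
      have h2 : i.val = 0 := Nat.eq_zero_of_dvd_of_lt h1 (ZMod.val_lt i)
      have h3 : i = 0 := (ZMod.val_eq_zero i).mp h2
      rw [h3]
      rfl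
    · change a * c ^ i.val = 1 at hi
      exfalso
      apply hac
      rw [eq_inv_of_mul_eq_one_left hi]
      exact inv_mem (Subgroup.pow_mem _ (Subgroup.mem_zpowers c) _)
  have hfin : Finite M := Nat.finite_of_card_ne_zero (by rw [hcard]; norm_num)
  have hbij : Function.Bijective f := (Nat.bijective_iff_injective_and_card f).mpr ⟨hinj, by
    rw [hcard, DihedralGroup.nat_card]⟩
  exact ⟨MulEquiv.ofBijective f hbij⟩

theorem order_four {c z : M} (h1 : c * c = z) (h2 : z ≠ 1) (h3 : z * z = 1) : orderOf c = 4 := by
  have : orderOf c = 2 ^ (1 + 1) := by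
    apply orderOf_eq_prime_pow
    · rw [pow_one, sq, h1]; exact h2
    · have : c ^ 2 ^ (1 + 1) = (c * c) * (c * c) := by
        norm_num [pow_succ, mul_assoc]
      rw [this, h1, h3]
  rw [this]
  norm_num

/-- the main structure: a swap of two commuting involutions. -/
theorem exists_c {a b d : M} (ha : a * a = 1) (hb : b * b = 1) (hab : a * b = b * a) (hne : a ≠ b)
    (hd : d * a = b * d) (hdd : d * d = 1 ∨ d * d = a * b) :
    ∃ c, (c = d ∨ c = d * a) ∧ c * c = a * b ∧ orderOf c = 4 ∧ a ∉ Subgroup.zpowers c ∧ a * c * a = c⁻¹ := by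
  have hz : a * b ≠ 1 := by
    intro h
    apply hne
    rw [eq_inv_of_mul_eq_one_left h]
    exact inv_eq_of_mul_eq_one_left hb
  have hzz : (a * b) * (a * b) = 1 := by
    calc (a * b) * (a * b) = a * (b * a) * b := by group
      _ = a * (a * b) * b := by rw [hab]
      _ = (a * a) * (b * b) := by group
      _ = 1 := by rw [ha, hb, one_mul]
  have hncomm : a * d ≠ d * a := by
    intro h
    apply hne
    rw [hd] at h
    exact mul_right_cancel h
  have hdb : d * b = a * d := by
    have h1 : d * d * a = a * (d * d) := by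
      rcases hdd with h | h
      · rw [h, one_mul, mul_one]
      · rw [h, mul_assoc, ← hab]
    have h2 : d * b * d = a * d * d := by
      calc d * b * d = d * (b * d) := by group
        _ = d * (d * a) := by rw [hd]
        _ = d * d * a := by group
        _ = a * (d * d) := h1
        _ = a * d * d := by group
    exact mul_right_cancel h2
  rcases hdd with h | h
  · refine ⟨d * a, Or.inr rfl, ?_, ?_, ?_, ?_⟩
    · calc d * a * (d * a) = (d * a) * d * a := by group
        _ = b * d * d * a := by rw [hd]
        _ = b * (d * d) * a := by group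
        _ = b * a := by rw [h, mul_one]
        _ = a * b := hab.symm
    · apply order_four _ hz hzz
      calc d * a * (d * a) = (d * a) * d * a := by group
        _ = b * d * d * a := by rw [hd]
        _ = b * (d * d) * a := by group
        _ = b * a := by rw [h, mul_one]
        _ = a * b := hab.symm
    · intro hmem
      have h3 : a * (d * a) = (d * a) * a := by
        obtain ⟨k, hk⟩ := hmem
        have hk' : (d * a) ^ k = a := hk
        have hcm : Commute ((d * a) ^ k) (d * a) := (Commute.refl (d * a)).zpow_left k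
        rw [hk'] at hcm
        exact hcm
      apply hncomm
      rw [← mul_assoc] at h3
      exact mul_right_cancel h3
    · rw [mul_assoc, mul_assoc, ha, mul_one, mul_inv_rev, inv_eq_of_mul_eq_one_left ha, inv_eq_of_mul_eq_one_left h]
  · refine ⟨d, Or.inl rfl, h, order_four h hz hzz, ?_, ?_⟩
    · intro hmem
      apply hncomm
      obtain ⟨k, hk⟩ := hmem
      have hk' : d ^ k = a := hk
      have hcm : Commute (d ^ k) d := (Commute.refl d).zpow_left k
      rw [hk'] at hcm
      exact hcm
    · rw [eq_comm]
      apply inv_eq_of_mul_eq_one_right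
      calc d * (a * d * a) = (d * a) * (d * a) := by group
        _ = (b * d) * (d * a) := by rw [← hd]
        _ = b * (d * d) * a := by group
        _ = b * (a * b) * a := by rw [h]
        _ = (b * a) * (b * a) := by group
        _ = 1 := by rw [← hab]; exact hzz

theorem dihedral_swap (hcard : Nat.card M = 8) {a b d : M} (ha : a * a = 1) (hb : b * b = 1) (hab : a * b = b * a)
    (hne : a ≠ b) (hd : d * a = b * d) (hdd : d * d = 1 ∨ d * d = a * b) : Nonempty (DihedralGroup 4 ≃* M) := by
  obtain ⟨c, -, -, h1, h2, h3⟩ := exists_c ha hb hab hne hd hdd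
  exact dihedral_of hcard h1 ha h2 h3

/-- extension of an odd cyclic group by a dihedral group. -/
theorem prod_of_odd {G : Type*} [Group G] {f : ℕ} (hf : Odd f) (φ : G →* Multiplicative (ZMod f))
    (hφ : Function.Surjective φ) (e : DihedralGroup 4 ≃* φ.ker) :
    Nonempty (G ≃* DihedralGroup 4 × Multiplicative (ZMod f)) := by
  have hf0 : f ≠ 0 := by rintro rfl; exact absurd hf (by decide)
  have : NeZero f := ⟨hf0⟩
  have hcard : Nat.card φ.ker = 8 := by rw [← Nat.card_congr e.toEquiv, DihedralGroup.nat_card]
  obtain ⟨x₀, hx₀⟩ := hφ (Multiplicative.ofAdd 1)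
  -- adjust the order
  obtain ⟨k, hk1, hk2⟩ : ∃ k : ℕ, k % f = 1 % f ∧ 8 ∣ k := by
    have hco : Nat.Coprime f 8 := by
      have : Nat.Coprime f (2 ^ 3) := Nat.Coprime.pow_right 3 (Nat.coprime_two_right.mpr hf)
      exact this
    obtain ⟨k, h1, h2⟩ := Nat.chineseRemainder hco 1 0
    exact ⟨k, h1, (Nat.modEq_zero_iff_dvd).mp h2⟩
  set x := x₀ ^ k with hx
  have hφx : φ x = Multiplicative.ofAdd 1 := by
    rw [hx, map_pow, hx₀, ← ofAdd_nsmul, nsmul_one]
    congr 1
    have := (ZMod.natCast_eq_natCast_iff' k 1 f).mpr hk1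
    rw [this, Nat.cast_one]
  have hxf : x ^ f = 1 := by
    have h1 : x₀ ^ f ∈ φ.ker := by
      rw [MonoidHom.mem_ker, map_pow, hx₀, ← ofAdd_nsmul, nsmul_one, ZMod.natCast_self]
      rfl
    obtain ⟨j, rfl⟩ := hk2
    have h2 : (⟨x₀ ^ f, h1⟩ : φ.ker) ^ 8 = 1 := by
      rw [← hcard]
      exact pow_card_eq_one'
    have h3 : (x₀ ^ f) ^ 8 = 1 := congrArg Subtype.val h2
    rw [hx, ← pow_mul, mul_assoc, mul_comm 8, mul_comm (j * f), ← mul_assoc]
    rw [show 8 * j * f = f * 8 * j by ring, pow_mul, pow_mul, h3, one_pow] <;> ring_nf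
  -- elements of the kernel
  have hnorm : ∀ y ∈ φ.ker, x * y * x⁻¹ ∈ φ.ker := fun y hy => (inferInstance : φ.ker.Normal).conj_mem y hy x
  let α : MulAut (DihedralGroup 4) := (e.trans (MulAut.conjNormal x)).trans e.symm
  have hα : ∀ y, (e (α y) : G) = x * (e y : G) * x⁻¹ := by
    intro y
    change ((e (e.symm (MulAut.conjNormal x (e y))) : φ.ker) : G) = _
    rw [MulEquiv.apply_symm_apply, MulAut.conjNormal_apply]
  have hαk : ∀ (n : ℕ) y, (e ((α ^ n) y) : G) = x ^ n * (e y : G) * (x ^ n)⁻¹ := by
    intro n
    induction n with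
    | zero => intro y; simp
    | succ n ih =>
      intro y
      rw [pow_succ', MulAut.mul_apply, hα, ih, pow_succ']
      group
  have hαf : α ^ f = 1 := by
    ext1 y
    apply e.injective
    apply Subtype.ext
    rw [hαk, hxf]
    simp
  have hα1 : α = 1 := by
    -- the image of `r 1`
    have hr : α (DihedralGroup.r 1) = DihedralGroup.r 1 ∨ α (DihedralGroup.r 1) = DihedralGroup.r 3 := by
      have h1 : orderOf (α (DihedralGroup.r 1)) = 4 := by
        rw [MulEquiv.orderOf_eq]
        exact DihedralGroup.orderOf_r_one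
      have : ∀ y : DihedralGroup 4, y * y ≠ 1 → y = DihedralGroup.r 1 ∨ y = DihedralGroup.r 3 := by decide
      apply this
      intro h2
      have h3 := orderOf_dvd_of_pow_eq_one (show (α (DihedralGroup.r 1)) ^ 2 = 1 by rw [sq]; exact h2)
      rw [h1] at h3
      norm_num at h3
    have hα8 : α ^ 4 = 1 := by
      have h3 : ∀ i : ZMod 4, α (DihedralGroup.r 1) = DihedralGroup.r i → ∀ j : ZMod 4,
          α (DihedralGroup.r j) = DihedralGroup.r (i * j) := by
        intro i hi j
        have h4 : (DihedralGroup.r j : DihedralGroup 4) = (DihedralGroup.r 1) ^ j.val := by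
          rw [DihedralGroup.r_one_pow, ZMod.natCast_val, ZMod.cast_id]
        have h5 : ∀ n : ℕ, (DihedralGroup.r i : DihedralGroup 4) ^ n = DihedralGroup.r (i * (n : ZMod 4)) := by
          intro n
          induction n with
          | zero =>
            rw [pow_zero, Nat.cast_zero, mul_zero]
            rfl
          | succ n ih =>
            rw [pow_succ, ih, DihedralGroup.r_mul_r]
            congr 1
            push_cast
            ring
        rw [h4, map_pow, hi, h5]
        congr 2
        rw [ZMod.natCast_val, ZMod.cast_id]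
      obtain ⟨s, hs⟩ : ∃ s : ZMod 4, α (DihedralGroup.sr 0) = DihedralGroup.sr s := by
        rcases h : α (DihedralGroup.sr 0) with i | i
        · exfalso
          obtain ⟨j, hj⟩ : ∃ j, α (DihedralGroup.r j) = DihedralGroup.r i := by
            rcases hr with h4 | h4
            · exact ⟨i, by rw [h3 _ h4, one_mul]⟩
            · refine ⟨3 * i, ?_⟩
              rw [h3 _ h4, ← mul_assoc]
              congr 1
              have : (3 : ZMod 4) * 3 = 1 := by decide
              rw [this, one_mul]
          rw [← h] at hj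
          have := α.injective hj
          exact absurd this (by simp)
        · exact ⟨i, rfl⟩
      have hsr : ∀ j : ZMod 4, (DihedralGroup.sr j : DihedralGroup 4) = DihedralGroup.sr 0 * DihedralGroup.r j := by
        intro j
        rw [DihedralGroup.sr_mul_r, zero_add]
      have h6 : ∀ i : ZMod 4, α (DihedralGroup.r 1) = DihedralGroup.r i → ∀ j : ZMod 4,
          α (DihedralGroup.sr j) = DihedralGroup.sr (s + i * j) := by
        intro i hi j
        rw [hsr, map_mul, hs, h3 i hi, DihedralGroup.sr_mul_r]
      ext1 y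
      rw [pow_succ, pow_succ, pow_succ, pow_one]
      simp only [MulAut.mul_apply, MulAut.one_apply]
      rcases hr with h7 | h7
      · rcases y with j | j
        · simp only [h3 _ h7, one_mul]
        · simp only [h6 _ h7, one_mul]
          congr 1
          have : ∀ s j : ZMod 4, s + (s + (s + (s + j))) = j := by decide
          exact this s j
      · rcases y with j | j
        · simp only [h3 _ h7]
          congr 1
          have : ∀ j : ZMod 4, 3 * (3 * (3 * (3 * j))) = j := by decide
          exact this j
        · simp only [h6 _ h7]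
          congr 1
          have : ∀ s j : ZMod 4, s + 3 * (s + 3 * (s + 3 * (s + 3 * j))) = j := by decide
          exact this s j
    have h8 : orderOf α ∣ 4 := orderOf_dvd_of_pow_eq_one hα8
    have h9 : orderOf α ∣ f := orderOf_dvd_of_pow_eq_one hαf
    have h10 : Nat.Coprime f 4 := by
      have : Nat.Coprime f (2 ^ 2) := Nat.Coprime.pow_right 2 (Nat.coprime_two_right.mpr hf)
      exact this
    rw [← orderOf_eq_one_iff]
    exact Nat.eq_one_of_dvd_coprimes h10 h9 h8
  have hcomm : ∀ y : φ.ker, x * (y : G) = y * x := by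
    intro y
    obtain ⟨z, rfl⟩ := e.surjective y
    have h1 := hα z
    rw [hα1] at h1
    exact (eq_mul_inv_iff_mul_eq.mp h1).symm
  -- the product map
  let s : Multiplicative (ZMod f) → G := fun i => x ^ (Multiplicative.toAdd i).val
  have hs : ∀ i j, s (i * j) = s i * s j := by
    intro i j
    change x ^ (Multiplicative.toAdd i + Multiplicative.toAdd j).val = _
    rw [ZMod.val_add, ← pow_add]
    have h1 : orderOf x ∣ f := orderOf_dvd_of_pow_eq_one hxf
    rw [pow_eq_pow_iff_modEq]
    exact (Nat.mod_modEq _ _).of_dvd h1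
  have hφs : ∀ i, φ (s i) = i := by
    intro i
    change φ (x ^ _) = i
    rw [map_pow, hφx, ← ofAdd_nsmul, nsmul_one, ZMod.natCast_val, ZMod.cast_id]
    rfl
  let F : DihedralGroup 4 × Multiplicative (ZMod f) →* G :=
    { toFun := fun p => (e p.1 : G) * s p.2
      map_one' := by
        change (e 1 : G) * x ^ (0 : ZMod f).val = 1
        rw [map_one, ZMod.val_zero, pow_zero, mul_one]
        rfl
      map_mul' := by
        intro p q
        change (e (p.1 * q.1) : G) * s (p.2 * q.2) = e p.1 * s p.2 * (e q.1 * s q.2)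
        rw [map_mul, Subgroup.coe_mul, hs]
        have h1 : s p.2 * (e q.1 : G) = e q.1 * s p.2 := by
          have h2 : Commute x (e q.1 : G) := hcomm (e q.1)
          exact (h2.pow_left _)
        calc (e p.1 : G) * e q.1 * (s p.2 * s q.2) = e p.1 * (e q.1 * s p.2) * s q.2 := by group
          _ = e p.1 * (s p.2 * e q.1) * s q.2 := by rw [h1]
          _ = e p.1 * s p.2 * (e q.1 * s q.2) := by group }
  have hinj : Function.Injective F := by
    rw [injective_iff_map_eq_one]
    rintro ⟨y, i⟩ h
    change (e y : G) * s i = 1 at h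
    have h1 := congrArg φ h
    rw [map_mul, hφs, MonoidHom.mem_ker.mp (e y).2, one_mul, map_one] at h1
    subst h1
    have h2 : s 1 = 1 := by
      change x ^ (0 : ZMod f).val = 1
      rw [ZMod.val_zero, pow_zero]
    rw [h2, mul_one] at h
    have h3 : e y = 1 := Subtype.ext h
    have h4 : y = 1 := e.injective (by rw [h3, map_one])
    rw [h4]
    rfl
  have hsurj : Function.Surjective F := by
    intro g
    have h1 : g * (s (φ g))⁻¹ ∈ φ.ker := by
      rw [MonoidHom.mem_ker, map_mul, map_inv, hφs, mul_inv_cancel]
    refine ⟨⟨e.symm ⟨_, h1⟩, φ g⟩, ?_⟩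
    change (e (e.symm ⟨_, h1⟩) : G) * s (φ g) = g
    rw [MulEquiv.apply_symm_apply]
    exact inv_mul_cancel_right _ _
  exact ⟨(MulEquiv.ofBijective F ⟨hinj, hsurj⟩).symm⟩

end Cfsg.Agent.H16.Dih
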