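import Cfsg.Agent.H16_Gam

set_option autoImplicit false

/-! Semilinear families: class splitting, centralizers of field automorphisms. -/

namespace Cfsg.Agent.H16.Gam

open Matrix Cfsg.Agent.H16.AutG Cfsg.Agent.H16.AutL Cfsg.Agent.H16.Desc

theorem mem_scalars {ι : Type} [Fintype ι] [DecidableEq ι] {F : Type*} [Field F] {g : GL ι F} :
    g ∈ Cfsg.Geo.scalars ι F ↔ ∃ c : Fˣ, g = scl ι c := by
  constructor
  · rintro ⟨c, rfl⟩
    exact ⟨c, rfl⟩
  · rintro ⟨c, rfl⟩
    exact ⟨c, rfl⟩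

/-- the fixed field of `σ` is the image of a field of the right size. -/
theorem exists_emb {F : Type*} [Field F] [Finite F] {σ : F ≃+* F} {q₀ : ℕ}
    (hcard : Nat.card F = q₀ ^ orderOf σ) (hfix : Nat.card {x : F // σ x = x} = q₀)
    (F₀ : Type*) [Field F₀] [Fintype F₀] (hF₀ : Fintype.card F₀ = q₀) :
    ∃ e : F₀ →+* F, ∀ a : F, σ a = a ↔ a ∈ Set.range e := by
  have : Fintype F := Fintype.ofFinite F
  have hr0 : 0 < orderOf σ := orderOf_pos σ
  obtain ⟨ι, hι⟩ := H5.FF.exists_embedding (F := F) (K := F₀) hF₀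
    (by rw [← Nat.card_eq_fintype_card, hcard]) hr0.ne'
  refine ⟨ι, ?_⟩
  have hsub : {a : F | σ a = a} ⊆ Set.range ι := by
    intro a ha
    rw [← hι]
    let K : Subfield F := (RingHom.eqLocusField (σ : F →+* F) (RingHom.id F))
    have hK : ∀ x, x ∈ K ↔ σ x = x := fun x => Iff.rfl
    have hKc : Nat.card K = q₀ := by
      rw [← hfix]
      exact Nat.card_congr (Equiv.subtypeEquivRight hK)
    have : Fintype K := Fintype.ofFinite K
    have h2 := FiniteField.pow_card (⟨a, (hK a).mpr ha⟩ : K)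
    rw [← Nat.card_eq_fintype_card, hKc] at h2
    exact congrArg Subtype.val h2
  have heq : {a : F | σ a = a} = Set.range ι := by
    apply Set.eq_of_subset_of_ncard_le hsub
    have e1 : (Set.range ι).ncard = q₀ := by
      rw [← Set.image_univ, Set.ncard_image_of_injective _ ι.injective, Set.ncard_univ,
        Nat.card_eq_fintype_card, hF₀]
    rw [e1, ← hfix]
    exact le_of_eq rfl
  intro a
  rw [← heq]
  rfl

/-- matrices fixed by `σ` come from the small field. -/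
theorem exists_desc {ι : Type*} [Fintype ι] [DecidableEq ι] {F F₀ : Type*} [Field F] [Field F₀] {σ : F ≃+* F}
    {e : F₀ →+* F} (he : ∀ a : F, σ a = a ↔ a ∈ Set.range e) {g : GL ι F} (hg : gσ σ g = g) :
    ∃ G : GL ι F₀, Matrix.GeneralLinearGroup.map e G = g := by
  have h1 : ∀ i j, ∃ y, e y = (g : Matrix ι ι F) i j := by
    intro i j
    apply (he _).mp
    exact congrArg (fun x : GL ι F => (x : Matrix ι ι F) i j) hg
  have h2 : ∀ i j, ∃ y, e y = ((g⁻¹ : GL ι F) : Matrix ι ι F) i j := by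
    intro i j
    apply (he _).mp
    have h3 : gσ σ g⁻¹ = g⁻¹ := by rw [_root_.map_inv, hg]
    exact congrArg (fun x : GL ι F => (x : Matrix ι ι F) i j) h3
  choose A hA using h1
  choose B hB using h2
  have hinj : Function.Injective (fun M : Matrix ι ι F₀ => M.map e) :=
    Matrix.map_injective e.injective
  have hAm : (Matrix.of A).map e = (g : Matrix ι ι F) := by ext i j; exact hA i j
  have hBm : (Matrix.of B).map e = ((g⁻¹ : GL ι F) : Matrix ι ι F) := by
    ext i j; exact hB i j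
  let G : GL ι F₀ := ⟨Matrix.of A, Matrix.of B, by
    apply hinj
    change (Matrix.of A * Matrix.of B).map e = (1 : Matrix ι ι F₀).map e
    rw [Matrix.map_mul, hAm, hBm, ← Units.val_mul, mul_inv_cancel, Units.val_one,
      Matrix.map_one _ (_root_.map_zero e) (_root_.map_one e)], by
    apply hinj
    change (Matrix.of B * Matrix.of A).map e = (1 : Matrix ι ι F₀).map e
    rw [Matrix.map_mul, hAm, hBm, ← Units.val_mul, inv_mul_cancel, Units.val_one,
      Matrix.map_one _ (_root_.map_zero e) (_root_.map_one e)]⟩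
  exact ⟨G, Units.ext hAm⟩

theorem map_fixed {ι : Type*} [Fintype ι] [DecidableEq ι] {F F₀ : Type*} [Field F] [Field F₀] {σ : F ≃+* F}
    {e : F₀ →+* F} (he : ∀ a : F, σ a = a ↔ a ∈ Set.range e) (G : GL ι F₀) :
    gσ σ (Matrix.GeneralLinearGroup.map e G) = Matrix.GeneralLinearGroup.map e G := by
  apply Units.ext
  ext i j
  exact (he _).mpr ⟨_, rfl⟩

theorem map_scl_iff {ι : Type*} [Fintype ι] [DecidableEq ι] [Nonempty ι] {F F₀ : Type*} [Field F] [Field F₀]
    (e : F₀ →+* F) (G : GL ι F₀) :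
    (∃ c : Fˣ, Matrix.GeneralLinearGroup.map e G = scl ι c) ↔ ∃ c : F₀ˣ, G = scl ι c := by
  constructor
  · rintro ⟨c, hc⟩
    obtain ⟨i⟩ := ‹Nonempty ι›
    have h2 : ∀ i j, (diagonal fun _ => (c : F)) i j = e ((G : Matrix ι ι F₀) i j) := by
      intro i j
      have := congrArg (fun x : GL ι F => (x : Matrix ι ι F) i j) hc
      exact this.symm
    have hc1 : (c : F) = e ((G : Matrix ι ι F₀) i i) := by
      have := h2 i i
      rwa [diagonal_apply_eq] at this
    have hne : (G : Matrix ι ι F₀) i i ≠ 0 := by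
      intro h0
      rw [h0, map_zero] at hc1
      exact c.ne_zero hc1
    refine ⟨Units.mk0 _ hne, ?_⟩
    apply Units.ext
    ext j k
    apply e.injective
    rw [← h2]
    change _ = e ((Matrix.scalar ι ((G : Matrix ι ι F₀) i i)) j k)
    rw [Matrix.scalar_apply, diagonal_apply, diagonal_apply, hc1]
    split_ifs <;> simp
  · rintro ⟨c, rfl⟩
    refine ⟨Units.map (e : F₀ →* F) c, ?_⟩
    apply Units.ext
    ext i j
    change e ((Matrix.scalar ι (c : F₀)) i j) = (Matrix.scalar ι (e (c : F₀))) i j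
    rw [Matrix.scalar_apply, Matrix.scalar_apply, Matrix.diagonal_apply, Matrix.diagonal_apply]
    split_ifs <;> simp

namespace Fam

variable {S : Type*} [Group S] {ι : Type} [Fintype ι] [DecidableEq ι] {F : Type*} [Field F] (Φ : Fam S ι F)

/-- class splitting through an abelian character. -/
theorem split {C : Type*} [CommGroup C] (χ : Φ.N →* C) (hχ : Function.Surjective χ)
    (hk : ∀ g : Φ.N, χ g = 1 → Φ.T (Φ.nin g) ∈ Cfsg.Inn (S ⧸ Subgroup.center S))
    (hs : ∀ s : S, χ ⟨Φ.ρ s, Φ.inn s⟩ = 1) (x : MulAut (S ⧸ Subgroup.center S)) :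
    Cfsg.splitClassCount Φ.D (Cfsg.Inn (S ⧸ Subgroup.center S)) x =
      (((Subgroup.centralizer {x}).comap (Φ.T.comp Φ.nin)).map χ ⊔
        (Φ.T.comp Φ.nin).ker.map χ).index := by
  have hle : Cfsg.Inn (S ⧸ Subgroup.center S) ≤ Φ.D := Φ.inn_le_D
  rw [Split.splitClassCount_eq _ _ inferInstance hle]
  set f : Φ.N →* MulAut (S ⧸ Subgroup.center S) := Φ.T.comp Φ.nin with hf
  set M := Cfsg.Inn (S ⧸ Subgroup.center S) ⊔ (Φ.D ⊓ Subgroup.centralizer {x}) with hM
  have h1 : M.relIndex Φ.D = (M.comap f).index := (Subgroup.index_comap M f).symm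
  have h2 : χ.ker ≤ M.comap f := by
    intro g hg
    exact Subgroup.mem_sup_left (hk g hg)
  rw [h1, ← Subgroup.index_map_eq (M.comap f) hχ h2]
  congr 1
  apply le_antisymm
  · rintro _ ⟨g, hg, rfl⟩
    obtain ⟨k, ⟨s, hs'⟩, c, ⟨hc1, hc2⟩, e⟩ := Subgroup.mem_sup_of_normal_left.mp hg
    induction s using QuotientGroup.induction_on with
    | H s =>
      obtain ⟨h, hh⟩ := hc1
      have hk' : f ⟨Φ.ρ s, Φ.inn s⟩ = k := by
        rw [← hs']
        exact Φ.T_inc s
      have h3 : g⁻¹ * (⟨Φ.ρ s, Φ.inn s⟩ * h) ∈ f.ker := by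
        rw [MonoidHom.mem_ker, _root_.map_mul, _root_.map_inv, _root_.map_mul, hk', inv_mul_eq_one]
        change f g = k * f h
        rw [← e]
        congr 1
        exact hh.symm
      have h5 : χ g = χ h * (χ (g⁻¹ * (⟨Φ.ρ s, Φ.inn s⟩ * h)))⁻¹ := by
        rw [_root_.map_mul, _root_.map_mul, hs, one_mul, _root_.map_inv, mul_inv, inv_inv]
        rw [mul_comm (χ g), ← mul_assoc, mul_inv_cancel, one_mul]
      rw [h5]
      refine mul_mem (Subgroup.mem_sup_left ⟨h, ?_, rfl⟩)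
        (Subgroup.mem_sup_right (inv_mem ⟨_, h3, rfl⟩))
      have h6 : f h = c := hh
      rw [SetLike.mem_coe, Subgroup.mem_comap, h6]
      exact hc2
  · rw [sup_le_iff]
    constructor
    · rintro _ ⟨g, hg, rfl⟩
      exact ⟨g, Subgroup.mem_sup_right ⟨⟨g, rfl⟩, hg⟩, rfl⟩
    · rintro _ ⟨c, hc, rfl⟩
      refine ⟨c, ?_, rfl⟩
      change f _ ∈ M
      rw [MonoidHom.mem_ker.mp hc]
      exact one_mem _

/-- the centralizer of a field automorphism. -/
theorem cent_field [Finite F] [Nonempty ι] (hf : Φ.HasField) {σ : F ≃+* F} {F₀ : Type*} [Field F₀]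
    (hr0 : 0 < orderOf σ) {e : F₀ →+* F} (he : ∀ a : F, σ a = a ↔ a ∈ Set.range e)
    (N₀ : Subgroup (GL ι F₀)) (hN₀ : ∀ g, g ∈ N₀ ↔ Matrix.GeneralLinearGroup.map e g ∈ Φ.N) :
    Nonempty (↥(Φ.D ⊓ Subgroup.centralizer {Φ.T (fin hf σ)}) ≃* Cfsg.projQuot N₀) := by
  let f₀ : N₀ →* Φ.N := ((Matrix.GeneralLinearGroup.map e).comp N₀.subtype).codRestrict Φ.N
    (fun g => (hN₀ _).mp g.2)
  let f : N₀ →* ↥(Φ.D ⊓ Subgroup.centralizer {Φ.T (fin hf σ)}) :=
    ((Φ.T.comp Φ.nin).comp f₀).codRestrict _ (fun g => by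
      refine ⟨⟨_, rfl⟩, ?_⟩
      refine (Φ.comm_iff hf).mpr ⟨1, ?_⟩
      rw [_root_.map_one, one_mul]
      exact map_fixed he _)
  have hfs : Function.Surjective f := by
    rintro ⟨α, ⟨g, rfl⟩, hα2⟩
    obtain ⟨c, hc⟩ := (Φ.comm_iff hf).mp hα2
    obtain ⟨t, g₀, hg, hg₀⟩ := exists_fixed_of_sc rfl hr0 hc
    obtain ⟨G, hG⟩ := exists_desc he hg₀
    have hg0N : g₀ ∈ Φ.N := by
      have : g₀ = scl ι t⁻¹ * (g : GL ι F) := by
        rw [hg, ← mul_assoc, ← _root_.map_mul, inv_mul_cancel, _root_.map_one, one_mul]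
      rw [this]
      exact mul_mem (Φ.sc _) g.2
    refine ⟨⟨G, (hN₀ _).mpr (by rw [hG]; exact hg0N)⟩, Subtype.ext ?_⟩
    change Φ.T (Φ.nin ⟨Matrix.GeneralLinearGroup.map e G, _⟩) = Φ.T (Φ.nin g)
    have h4 : Φ.T (Φ.nin ⟨scl ι t, Φ.sc t⟩) = 1 := (ker_nin _).mpr ⟨_, rfl⟩
    have h5 : g = ⟨scl ι t, Φ.sc t⟩ * ⟨Matrix.GeneralLinearGroup.map e G, by rw [hG]; exact hg0N⟩ := by
      apply Subtype.ext
      rw [Subgroup.coe_mul]
      change _ = scl ι t * Matrix.GeneralLinearGroup.map e G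
      rw [hG, hg]
    rw [h5, _root_.map_mul, _root_.map_mul, h4, one_mul]
  have hfk : f.ker = (Cfsg.Geo.scalars ι F₀).subgroupOf N₀ := by
    ext g
    rw [MonoidHom.mem_ker, Subgroup.mem_subgroupOf, mem_scalars, ← map_scl_iff e]
    have h1 : f g = 1 ↔ Φ.T (Φ.nin (f₀ g)) = 1 := by
      constructor
      · intro h
        exact congrArg Subtype.val h
      · intro h
        exact Subtype.ext h
    rw [h1, ker_nin]
    rfl
  refine ⟨((QuotientGroup.quotientMulEquivOfEq hfk.symm).trans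
    (QuotientGroup.quotientKerEquivOfSurjective f hfs)).symm⟩

end Fam

end Cfsg.Agent.H16.Gam
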