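import Cfsg.Agent.H16_GamS

set_option autoImplicit false

/-! Class splitting and outer automorphism groups through a character. -/

namespace Cfsg.Agent.H16.GamT

open Cfsg.Agent.H16

variable {A N C : Type*} [Group A] [Group N] [CommGroup C] {D K : Subgroup A}

theorem split_gen (hK : K.Normal) (hKD : K ≤ D) (f : N →* A) (hf : f.range = D) (χ : N →* C)
    (hχ : Function.Surjective χ) (hk : ∀ g, χ g = 1 → f g ∈ K) (hs : ∀ k ∈ K, ∃ g, f g = k ∧ χ g = 1) (x : A) :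
    Cfsg.splitClassCount D K x =
      (((Subgroup.centralizer {x}).comap f).map χ ⊔ f.ker.map χ).index := by
  rw [Split.splitClassCount_eq _ _ hK hKD]
  set M := K ⊔ (D ⊓ Subgroup.centralizer {x}) with hM
  have h1 : M.relIndex D = (M.comap f).index := by
    rw [Subgroup.index_comap, hf]
  have h2 : χ.ker ≤ M.comap f := by
    intro g hg
    exact Subgroup.mem_sup_left (hk g hg)
  rw [h1, ← Subgroup.index_map_eq (M.comap f) hχ h2]
  congr 1
  apply le_antisymm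
  · rintro _ ⟨g, hg, rfl⟩
    obtain ⟨k, hk', c, ⟨hc1, hc2⟩, e⟩ := Subgroup.mem_sup_of_normal_left.mp hg
    have hc1' : c ∈ f.range := by rw [hf]; exact hc1
    obtain ⟨h, hh⟩ := hc1'
    obtain ⟨s, hs1, hs2⟩ := hs k hk'
    have h3 : g⁻¹ * (s * h) ∈ f.ker := by
      rw [MonoidHom.mem_ker, map_mul, map_inv, map_mul, hs1, inv_mul_eq_one, hh, e]
    have h5 : χ g = χ h * (χ (g⁻¹ * (s * h)))⁻¹ := by
      rw [map_mul, map_mul, hs2, one_mul, map_inv, mul_inv, inv_inv]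
      rw [mul_comm (χ g), ← mul_assoc, mul_inv_cancel, one_mul]
    rw [h5]
    refine mul_mem (Subgroup.mem_sup_left ⟨h, ?_, rfl⟩)
      (Subgroup.mem_sup_right (inv_mem ⟨_, h3, rfl⟩))
    rw [SetLike.mem_coe, Subgroup.mem_comap, hh]
    exact hc2
  · rw [sup_le_iff]
    constructor
    · rintro _ ⟨g, hg, rfl⟩
      exact ⟨g, Subgroup.mem_sup_right ⟨by rw [← hf]; exact ⟨g, rfl⟩, hg⟩, rfl⟩
    · rintro _ ⟨c, hc, rfl⟩
      refine ⟨c, ?_, rfl⟩
      change f _ ∈ M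
      rw [MonoidHom.mem_ker.mp hc]
      exact one_mem _

theorem quot_gen (hK : K.Normal) (f : N →* A) (hf : f.range = D) (χ : N →* C)
    (hχ : Function.Surjective χ) (hk : ∀ g, χ g = 1 → f g ∈ K) (hs : ∀ k ∈ K, ∃ g, f g = k ∧ χ g = 1) :
    ∃ ψ : C →* A ⧸ K, ψ.range = D.map (QuotientGroup.mk' K) ∧ ψ.ker = f.ker.map χ ∧
      ∀ g, (QuotientGroup.mk (f g) : A ⧸ K) = ψ (χ g) := by
  let ψ₀ : N →* A ⧸ K := (QuotientGroup.mk' K).comp f
  have h0 : χ.ker ≤ ψ₀.ker := by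
    intro g hg
    rw [MonoidHom.mem_ker]
    exact (QuotientGroup.eq_one_iff _).mpr (hk g hg)
  let ψ : C →* A ⧸ K := (χ.liftOfSurjective hχ) ⟨ψ₀, h0⟩
  have hψ : ∀ g, ψ (χ g) = ψ₀ g := fun g => MonoidHom.liftOfRightInverse_comp_apply _ _ _ ⟨ψ₀, h0⟩ g
  refine ⟨ψ, ?_, ?_, fun g => (hψ g).symm⟩
  · ext x
    constructor
    · rintro ⟨c, rfl⟩
      obtain ⟨g, rfl⟩ := hχ c
      exact ⟨f g, by rw [← hf]; exact ⟨g, rfl⟩, (hψ g).symm⟩
    · rintro ⟨a, ha, rfl⟩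
      rw [SetLike.mem_coe, ← hf] at ha
      obtain ⟨g, rfl⟩ := ha
      exact ⟨χ g, hψ g⟩
  · ext c
    rw [MonoidHom.mem_ker]
    constructor
    · intro h
      obtain ⟨g, rfl⟩ := hχ c
      rw [hψ] at h
      have h1 : f g ∈ K := (QuotientGroup.eq_one_iff _).mp h
      obtain ⟨s, hs1, hs2⟩ := hs _ h1
      refine ⟨s⁻¹ * g, ?_, ?_⟩
      · rw [SetLike.mem_coe, MonoidHom.mem_ker, map_mul, map_inv, hs1, inv_mul_cancel]
      · rw [map_mul, map_inv, hs2, inv_one, one_mul]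
    · rintro ⟨g, hg, rfl⟩
      rw [hψ]
      change (QuotientGroup.mk (f g) : A ⧸ K) = 1
      rw [MonoidHom.mem_ker.mp hg]
      rfl

/-- the map on the outer automorphism group. -/
theorem out_gen {G : Type*} [Group G] (hK : K.Normal) (hKD : K ≤ D) (θ : A →* G) (hθ : Function.Surjective θ) (hθk : θ.ker = D) :
    ∃ φ : A ⧸ K →* G, Function.Surjective φ ∧ φ.ker = D.map (QuotientGroup.mk' K) ∧
      ∀ a, φ (QuotientGroup.mk a) = θ a := by
  refine ⟨QuotientGroup.lift K θ (by rw [hθk]; exact hKD),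
    QuotientGroup.lift_surjective_of_surjective _ _ hθ _, ?_, fun a => rfl⟩
  ext x
  obtain ⟨α, rfl⟩ := QuotientGroup.mk'_surjective _ x
  rw [MonoidHom.mem_ker]
  change θ α = 1 ↔ _
  rw [← MonoidHom.mem_ker, hθk]
  constructor
  · intro h; exact ⟨α, h, rfl⟩
  · rintro ⟨β, hβ, h6⟩
    have h7 : β⁻¹ * α ∈ K := QuotientGroup.eq.mp h6
    have := mul_mem hβ (hKD h7)
    rwa [mul_inv_cancel_left] at this

end Cfsg.Agent.H16.GamT
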