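import Cfsg.Agent.H16_PolE
import Cfsg.Agent.H16_PolB

set_option autoImplicit false

/-! Hermitian polar spaces. -/

namespace Cfsg.Agent.H16.Ps

open Module

/-- a pair of additive maps exchanged by inversion is given by an automorphism (Hua). -/
theorem hua {F : Type*} [Field F] (μ ν : F → F) (hμ : ∀ a b, μ (a + b) = μ a + μ b)
    (hν : ∀ a b, ν (a + b) = ν a + ν b) (h1 : μ 1 = 1) (h : ∀ b, b ≠ 0 → ν b * μ b⁻¹ = 1) [Finite F] :
    (∀ a, μ a = ν a) ∧ ∀ a b, μ (a * b) = μ a * μ b := by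
  have hμ0 : μ 0 = 0 := by have := hμ 0 0; rw [add_zero] at this; simpa using this
  have hν0 : ν 0 = 0 := by have := hν 0 0; rw [add_zero] at this; simpa using this
  have hμn : ∀ a, μ (-a) = -μ a := fun a => by
    have := hμ a (-a); rw [add_neg_cancel, hμ0] at this
    exact (neg_eq_of_add_eq_zero_right this.symm).symm
  have hμs : ∀ a b, μ (a - b) = μ a - μ b := fun a b => by rw [sub_eq_add_neg, hμ, hμn, ← sub_eq_add_neg]
  have hμne : ∀ a, a ≠ 0 → μ a ≠ 0 := by
    intro a ha h0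
    have := h a⁻¹ (inv_ne_zero ha)
    rw [inv_inv, h0, mul_zero] at this
    exact zero_ne_one this
  have hinv : ∀ a, a ≠ 0 → ν a⁻¹ = (μ a)⁻¹ := by
    intro a ha
    have := h a⁻¹ (inv_ne_zero ha)
    rw [inv_inv] at this
    exact eq_inv_of_mul_eq_one_left this
  have hinv' : ∀ a, a ≠ 0 → μ a⁻¹ = (ν a)⁻¹ := by
    intro a ha
    exact (eq_inv_of_mul_eq_one_right (h a ha))
  have hνne : ∀ a, a ≠ 0 → ν a ≠ 0 := by
    intro a ha h0
    have := h a ha
    rw [h0, zero_mul] at this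
    exact zero_ne_one this
  have key : ∀ a b, μ (a ^ 2 * b) = μ a ^ 2 * ν b := by
    intro a b
    by_cases ha : a = 0
    · rw [ha]; simp [hμ0]
    by_cases hb : b = 0
    · rw [hb]; simp [hμ0, hν0]
    by_cases hab : a * b = 1
    · have hb' : b = a⁻¹ := eq_inv_of_mul_eq_one_right hab
      rw [hb', hinv a ha]
      have : a ^ 2 * a⁻¹ = a := by field_simp
      rw [this]
      have := hμne a ha
      field_simp
    · have h2 : b⁻¹ - a ≠ 0 := by
        intro h0
        apply hab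
        rw [← sub_eq_zero.mp h0, inv_mul_cancel₀ hb]
      have h3 : a - a ^ 2 * b ≠ 0 := by
        intro h0
        have : a * (1 - a * b) = 0 := by linear_combination h0
        rcases mul_eq_zero.mp this with h4 | h4
        · exact ha h4
        · exact hab (by linear_combination -h4)
      have h4 : (a - a ^ 2 * b)⁻¹ = a⁻¹ + (b⁻¹ - a)⁻¹ := by
        have h5 : (b⁻¹ - a) * b = 1 - a * b := by field_simp
        have h6 : 1 - a * b ≠ 0 := by rw [← h5]; exact mul_ne_zero h2 hb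
        have h7 : (b⁻¹ - a)⁻¹ = b / (1 - a * b) := by
          rw [← h5]; field_simp
        have h8 : a - a ^ 2 * b = a * (1 - a * b) := by ring
        rw [h7, h8, mul_inv]
        field_simp
        ring
      have h5 := congrArg ν h4
      rw [hν, hinv _ h3, hinv a ha, hinv _ h2, hμs, hμs, hinv' b hb] at h5
      -- target identity
      have h6 : (ν b)⁻¹ - μ a ≠ 0 := by
        rw [← hinv' b hb, ← hμs]; exact hμne _ h2
      have h7 : μ a - μ (a ^ 2 * b) ≠ 0 := by rw [← hμs]; exact hμne _ h3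
      have hβ := hνne b hb
      have hα := hμne a ha
      have h8 : (1 - μ a * ν b) ≠ 0 := by
        have : (1 - μ a * ν b) = ((ν b)⁻¹ - μ a) * ν b := by field_simp
        rw [this]
        exact mul_ne_zero h6 hβ
      have h9 : (μ a)⁻¹ + ((ν b)⁻¹ - μ a)⁻¹ = (μ a * (1 - μ a * ν b))⁻¹ := by
        have : ((ν b)⁻¹ - μ a)⁻¹ = ν b / (1 - μ a * ν b) := by
          have : (1 - μ a * ν b) = ((ν b)⁻¹ - μ a) * ν b := by field_simp
          rw [this]; field_simp
        rw [this, mul_inv]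
        field_simp
        ring
      rw [h9] at h5
      have h10 := inv_injective h5
      linear_combination -h10
  have heq : ∀ a, μ a = ν a := by
    intro a
    have := key 1 a
    rwa [h1, one_pow, one_mul, one_mul] at this
  refine ⟨heq, ?_⟩
  have hsq : ∀ a, μ (a ^ 2) = μ a ^ 2 := by
    intro a
    have := key a 1
    rwa [← heq, h1, mul_one, mul_one] at this
  have hsqm : ∀ a b, μ (a ^ 2 * b) = μ (a ^ 2) * μ b := by
    intro a b
    rw [key, hsq, heq b]
  intro c b
  by_cases h2 : (2 : F) = 0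
  · have : CharP F 2 := CharTwo.of_one_ne_zero_of_two_eq_zero one_ne_zero h2
    have := Fintype.ofFinite F
    obtain ⟨d, hd⟩ : IsSquare c := FiniteField.isSquare_of_char_two (ringChar.eq F 2) c
    have hd' : c = d ^ 2 := by rw [hd, sq]
    rw [hd', hsqm]
  · have hc : c = ((c + 1) / 2) ^ 2 - ((c - 1) / 2) ^ 2 := by field_simp; ring
    have : c * b = ((c + 1) / 2) ^ 2 * b - ((c - 1) / 2) ^ 2 * b := by
      conv_lhs => rw [hc]
      ring
    rw [this, hμs, hsqm, hsqm, ← sub_mul, ← hμs, ← hc]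

/-- Hermitian polar spaces. -/
structure Pol.Herm {F V : Type*} [Field F] [AddCommGroup V] [Module F V] (P : Pol F V) : Prop where
  eps : P.ε = 1
  sg_iff : ∀ x, P.sg x ↔ P.h x x = 0
  tr : ∀ c, P.bar c = c → ∃ d, d + P.bar d = c
  nm : ∀ c, P.bar c = c → ∃ d, d * P.bar d = c
  ne : ∃ k, k ≠ 0 ∧ k + P.bar k = 0
  nid : ∃ c, P.bar c ≠ c

namespace Pol.Herm

variable {F V : Type*} [Field F] [AddCommGroup V] [Module F V] {P : Pol F V} (hP : P.Herm)

include hP

theorem swap (x y : V) : P.h y x = P.bar (P.h x y) := by rw [P.h_symm x y, hP.eps, one_mul]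

theorem self_bar (x : V) : P.bar (P.h x x) = P.h x x := (hP.swap x x).symm

theorem sub {e f : V} (he : P.sg e) (hf : P.sg f) (hef : P.h e f = 1) : (P.sub he hf hef).Herm where
  eps := hP.eps
  sg_iff x := hP.sg_iff x
  tr := hP.tr
  nm := hP.nm
  ne := hP.ne
  nid := hP.nid

theorem sg_add_iff {x y : V} (hx : P.sg x) (hy : P.sg y) : P.sg (x + y) ↔ P.h x y + P.bar (P.h x y) = 0 := by
  rw [hP.sg_iff, P.h_add_left, P.h_add_right, P.h_add_right, P.sg_self x hx, P.sg_self y hy, hP.swap x y]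
  simp

theorem rich : P.Rich := by
  intro x y hx hy hxy
  obtain ⟨k, hk0, hk⟩ := hP.ne
  refine ⟨x + (k * (P.h x y)⁻¹) • y, ?_, ?_, ?_⟩
  · rw [hP.sg_add_iff hx (P.sg_smul _ y hy), P.h_smul_right, inv_mul_cancel_right₀ hxy, hk]
  · rw [P.h_add_right, P.sg_self x hx, zero_add, P.h_smul_right, inv_mul_cancel_right₀ hxy]
    exact hk0
  · rw [P.h_add_right, P.h_smul_right, P.sg_self y hy, mul_zero, add_zero]
    exact P.h_comm_ne hxy

/-- isotropic vectors exist in dimension at least two. -/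
theorem exists_sg [Finite F] [Finite V] (hV : 2 ≤ finrank F V) : ∃ x, P.sg x ∧ x ≠ 0 := by
  have hnt : Nontrivial V := Module.nontrivial_of_finrank_pos (R := F) (by omega)
  obtain ⟨x, hx0⟩ := exists_ne (0 : V)
  by_cases hx : P.sg x
  · exact ⟨x, hx, hx0⟩
  have hxx : P.h x x ≠ 0 := fun h => hx ((hP.sg_iff x).mpr h)
  have h1 : 0 < finrank F (LinearMap.ker (P.lin x)) := by
    have h2 := LinearMap.finrank_range_add_finrank_ker (P.lin x)
    have h3 : finrank F (LinearMap.range (P.lin x)) ≤ 1 := by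
      have := Submodule.finrank_le (LinearMap.range (P.lin x))
      rwa [finrank_self] at this
    omega
  have h2 : Nontrivial (LinearMap.ker (P.lin x)) := Module.nontrivial_of_finrank_pos h1
  obtain ⟨⟨y, hy⟩, hy0⟩ := exists_ne (0 : LinearMap.ker (P.lin x))
  have hy0' : y ≠ 0 := fun h => hy0 (Subtype.ext h)
  have hxy : P.h x y = 0 := hy
  by_cases hys : P.sg y
  · exact ⟨y, hys, hy0'⟩
  have hyy : P.h y y ≠ 0 := fun h => hys ((hP.sg_iff y).mpr h)
  obtain ⟨d, hd⟩ := hP.nm (-(P.h x x) * (P.h y y)⁻¹) (by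
    rw [map_mul, map_neg, map_inv₀, hP.self_bar, hP.self_bar])
  refine ⟨x + d • y, ?_, ?_⟩
  · rw [hP.sg_iff, P.h_add_left, P.h_add_right, P.h_add_right, P.h_smul_left, P.h_smul_left, P.h_smul_right,
      P.h_smul_right, hxy, P.h_comm_zero.mp hxy]
    have : P.h x x + d * P.bar d * P.h y y = 0 := by rw [hd]; field_simp; ring
    linear_combination this
  · intro h
    have h3 : P.h x (x + d • y) = 0 := by rw [h, P.h_zero_right]
    rw [P.h_add_right, P.h_smul_right, hxy, mul_zero, add_zero] at h3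
    exact hxx h3

end Pol.Herm

namespace PolG

variable {F V S : Type*} [Field F] [AddCommGroup V] [Module F V] [Group S] {P : PolG F V S} (hP : P.Herm)

include hP

theorem her_hX (v : V) (hv : P.sg v) (hv0 : v ≠ 0) : ∃ t ∈ P.X v, t ≠ 1 := by
  obtain ⟨k, hk0, hk⟩ := hP.ne
  obtain ⟨f, hf, hvf⟩ := P.exists_opp hv hv0
  have hfk : P.sg (f + k • v) := by
    rw [hP.sg_add_iff hf (P.sg_smul k v hv), P.h_smul_right, P.h_fe hvf, hP.eps, mul_one, hk]
  obtain ⟨s, hs⟩ := P.exE v f (f + k • v) hv hf hfk hvf (by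
    rw [P.h_add_right, P.h_smul_right, P.sg_self v hv, mul_zero, add_zero, hvf])
  have h1 : ∀ x, P.r s x = x + (k * P.h v x) • v := by
    intro x
    rw [hs, add_sub_cancel_left, P.h_smul_left, P.h_add_left, P.sg_self f hf, P.h_smul_left, hvf, hP.eps]
    simp only [smul_smul, one_mul, zero_add, mul_one]
    rw [add_sub_assoc, add_assoc, ← sub_smul, ← add_smul]
    congr 2
    ring
  have h2 : s ∈ P.X v := by
    refine ⟨⟨?_, fun x hx => ⟨0, ?_⟩⟩, fun x hx => ?_⟩
    · rw [h1, P.sg_self v hv, mul_zero, zero_smul, add_zero]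
    · rw [h1, hx, mul_zero]
    · rw [h1, hx, mul_zero, zero_smul, add_zero]
  refine ⟨s, h2, ?_⟩
  rintro rfl
  have h3 := h1 f
  rw [P.r_one, hvf, mul_one] at h3
  have h4 : k • v = 0 := (left_eq_add.mp h3)
  rcases smul_eq_zero.mp h4 with h5 | h5
  · exact hk0 h5
  · exact hv0 h5

theorem her_hcomm [Finite F] [Finite V] : ∀ v, P.sg v → v ≠ 0 → ∀ t ∈ P.Q v,
    (∀ s ∈ P.Q v, t * s = s * t) → t ∈ P.X v := by
  intro v hv hv0 t ht hc
  obtain ⟨f, hf, hvf⟩ := P.exists_opp hv hv0
  rw [P.mem_X_iff hv hf hvf ht]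
  have key : ∀ w ∈ P.perp v f, P.h w (P.uu v f t) = P.h (P.uu v f t) w := by
    intro w hw
    obtain ⟨s, hs, hsw⟩ := P.exU hv hf hvf hw
    have hr := congrArg (fun g => P.h f (P.r g f)) (hc s hs)
    simp only [P.r_mul] at hr
    obtain ⟨a, ha⟩ := P.r_f hv hf hvf hs
    obtain ⟨b, hb⟩ := P.r_f hv hf hvf ht
    rw [ha, hb, P.r_add, P.r_add, P.r_add, P.r_add, P.r_smul,
      P.r_smul, ha, hb, ht.1, hs.1, P.Q_act' hv hf hvf ht (P.uu_mem hv hf hvf s),
      P.Q_act' hv hf hvf hs (P.uu_mem hv hf hvf t)] at hr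
    simp only [P.h_add_right, P.h_smul_right, P.h_sub_right, P.sg_self f hf,
      P.h_fe hvf, (P.uu_mem hv hf hvf s).2, (P.uu_mem hv hf hvf t).2, hsw, hP.eps] at hr
    linear_combination hr
  have h3 := (P.sub hv hf hvf).nondeg ⟨P.uu v f t, P.uu_mem hv hf hvf t⟩ (by
    rintro ⟨w, hw⟩
    change P.h (P.uu v f t) w = 0
    by_contra hne
    obtain ⟨c, hc⟩ := hP.nid
    have h4 : ∀ c : F, P.bar c * P.bar (P.h (P.uu v f t) w) = c * P.h (P.uu v f t) w := by
      intro c
      have := key (c • w) ((P.perp v f).smul_mem c hw)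
      rw [P.h_smul_left, P.h_smul_right, hP.swap (P.uu v f t) w] at this
      exact this
    have h5 := h4 1
    rw [map_one, one_mul, one_mul] at h5
    have h6 := h4 c
    rw [h5] at h6
    exact hc (mul_right_cancel₀ hne h6))
  exact congrArg Subtype.val h3

end PolG

end Cfsg.Agent.H16.Ps
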