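import Cfsg.Agent.H16_Her1

set_option autoImplicit false

/-! Hermitian polar spaces: semilinearity in rank at least two. -/

namespace Cfsg.Agent.H16.Ps

open Module

namespace PolT

variable {F V S T : Type*} [Field F] [AddCommGroup V] [Module F V] [Group S] [Group T] {P : PolT F V S T}
  {α : MulAut T} {e f e' f' : V}

namespace Setup

variable (D : P.Setup α e f e' f')

include D

/-- the long root element attached to a pair. -/
theorem exists_long {u w : V} (hu : u ∈ P.perp e f) (hw : w ∈ P.perp e f) (hsu : P.sg u) (hsw : P.sg w)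
    (huw : P.sg (u + w)) : ∃ t ∈ P.Q e, ∃ t' ∈ P.Q e', P.pm t' = α (P.pm t) ∧
      P.r t f = f + (-(P.ε * P.h u w)) • e ∧
      P.r t' f' = f' + (-(P.ε * P.h (A P α e f e' f' u) (A P α e f e' f' w))) • e' := by
  obtain ⟨s₁, hs₁, s₁', hs₁', a1, a2, a3⟩ := D.A_root hu hsu
  obtain ⟨s₂, hs₂, s₂', hs₂', b1, b2, b3⟩ := D.A_root hw hsw
  obtain ⟨s₃, hs₃, s₃', hs₃', c1, c2, c3⟩ := D.A_root ((P.perp e f).add_mem hu hw) huw
  have key : ∀ {e f : V} (he : P.sg e) (hf : P.sg f) (hef : P.h e f = 1) {s₁ s₂ s₃ : S} {u w : V}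
      (hs₁ : s₁ ∈ P.Q e) (hs₂ : s₂ ∈ P.Q e) (hs₃ : s₃ ∈ P.Q e) (hu : u ∈ P.perp e f) (hw : w ∈ P.perp e f)
      (_ : P.h (u + w) (u + w) = 0)
      (_ : P.r s₁ f = f + u) (_ : P.r s₂ f = f + w) (_ : P.r s₃ f = f + (u + w)),
      P.r (s₁ * s₂ * s₃⁻¹) f = f + (-(P.ε * P.h u w)) • e := by
    intro e f he hf hef s₁ s₂ s₃ u w hs₁ hs₂ hs₃ hu hw h0 r1 r2 r3
    have huu : ∀ v ∈ P.perp e f, ∀ s, P.r s f = f + v → P.uu e f s = v := by
      intro v hv s h
      rw [PolG.uu, h, P.prj_add, P.prj_f hf hef, zero_add, P.prj_of_mem hv.1 hv.2]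
    have hco : ∀ v ∈ P.perp e f, ∀ s, P.r s f = f + v → P.co f s = 0 := by
      intro v hv s h
      rw [co, h, P.h_add_right, P.sg_self f hf, hv.2, add_zero, mul_zero]
    have hm := (P.perp e f).add_mem hu hw
    have hcoi : P.co f s₃⁻¹ = 0 := by
      have h5 := co_mul he hf hef hs₃ (inv_mem hs₃)
      rw [mul_inv_cancel, co_one hf, hco _ hm _ r3, P.uu_inv he hf hef hs₃, huu _ hm _ r3, P.h_neg_right, h0] at h5
      simpa using h5.symm
    have hm12 := mul_mem hs₁ hs₂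
    rw [r_f_co he hf hef (mul_mem hm12 (inv_mem hs₃)), P.uu_mul he hf hef hm12 (inv_mem hs₃),
      P.uu_mul he hf hef hs₁ hs₂, P.uu_inv he hf hef hs₃, huu _ hu _ r1, huu _ hw _ r2, huu _ hm _ r3,
      co_mul he hf hef hm12 (inv_mem hs₃), co_mul he hf hef hs₁ hs₂, hco _ hu _ r1, hco _ hw _ r2, hcoi,
      P.uu_mul he hf hef hs₁ hs₂, P.uu_inv he hf hef hs₃, huu _ hu _ r1, huu _ hw _ r2, huu _ hm _ r3, P.h_neg_right, h0,
      add_neg_cancel, add_zero]
    congr 2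
    ring
  have hAadd := D.A_add hu hw
  refine ⟨s₁ * s₂ * s₃⁻¹, mul_mem (mul_mem hs₁ hs₂) (inv_mem hs₃), s₁' * s₂' * s₃'⁻¹,
    mul_mem (mul_mem hs₁' hs₂') (inv_mem hs₃'), ?_, ?_, ?_⟩
  · rw [map_mul, map_mul, map_mul, map_mul, map_mul, map_mul, map_inv, map_inv, map_inv, a1, b1, c1]
  · exact key D.he.sg D.hf.sg D.hef hs₁ hs₂ hs₃ hu hw (P.sg_self _ huw) a2 b2 c2
  · refine key D.he.sg' D.hf.sg' D.hef' hs₁' hs₂' hs₃' (D.A_mem hu) (D.A_mem hw) ?_ a3 b3 ?_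
    · by_cases h0 : u + w = 0
      · rw [← hAadd, h0, D.A_zero, P.h_zero_left]
      · rw [← hAadd]
        exact P.sg_self _ (D.A_rel ((P.perp e f).add_mem hu hw) huw h0).sg'
    · rw [c3, hAadd]

theorem h_transfer {u w u₁ w₁ : V} (hu : u ∈ P.perp e f) (hw : w ∈ P.perp e f) (hsu : P.sg u) (hsw : P.sg w)
    (huw : P.sg (u + w)) (hu₁ : u₁ ∈ P.perp e f) (hw₁ : w₁ ∈ P.perp e f) (hsu₁ : P.sg u₁) (hsw₁ : P.sg w₁)
    (huw₁ : P.sg (u₁ + w₁)) (h : P.h u w = P.h u₁ w₁) :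
    P.h (A P α e f e' f' u) (A P α e f e' f' w) = P.h (A P α e f e' f' u₁) (A P α e f e' f' w₁) := by
  obtain ⟨t, ht, t', ht', h1, h2, h3⟩ := D.exists_long hu hw hsu hsw huw
  obtain ⟨s, hs, s', hs', h4, h5, h6⟩ := D.exists_long hu₁ hw₁ hsu₁ hsw₁ huw₁
  have h7 : t = s := P.Q_ext D.hef ht hs (by rw [h2, h5, h])
  have h8 : t' = s' := D.lift_uniq ht' hs' (by rw [h1, h4, h7])
  rw [h8] at h3
  rw [h3] at h6
  have h9 : (-(P.ε * P.h (A P α e f e' f' u) (A P α e f e' f' w))) • e' =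
    (-(P.ε * P.h (A P α e f e' f' u₁) (A P α e f e' f' w₁))) • e' := add_left_cancel h6
  have h10 := smul_left_injective F D.he.ne' h9
  exact mul_left_cancel₀ P.eps_ne (neg_injective h10)

/-- the scaling functions agree, Hermitian case. -/
theorem her_hE [Finite F] (hP : P.Herm) {x y : V} (hx : x ∈ P.perp e f) (hy : y ∈ P.perp e f) (hsx : P.sg x) (hsy : P.sg y)
    (hxy : P.h x y ≠ 0) (a n : F) (h : A P α e f e' f' (a • x) = n • A P α e f e' f' x) :
    A P α e f e' f' (a • y) = n • A P α e f e' f' y := by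
  have hx0 : x ≠ 0 := by rintro rfl; exact hxy (P.h_zero_left _)
  have hy0 : y ≠ 0 := by rintro rfl; exact hxy (P.h_zero_right _)
  choose μ hμ using fun a : F => D.exists_mu hx hsx hx0 a
  obtain ⟨k, hk0, hk⟩ := hP.ne
  set b := k * (P.h x y)⁻¹ with hb
  have hb0 : b ≠ 0 := mul_ne_zero hk0 (inv_ne_zero hxy)
  set z := b • y with hz
  have hzm : z ∈ P.perp e f := (P.perp e f).smul_mem b hy
  have hsz : P.sg z := P.sg_smul b y hsy
  have hz0 : z ≠ 0 := smul_ne_zero hb0 hy0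
  have hxz : P.h x z = k := by rw [hz, P.h_smul_right, hb, inv_mul_cancel_right₀ hxy]
  have hsxz : P.sg (x + z) := by rw [hP.sg_add_iff hsx hsz, hxz, hk]
  have hns : ¬ Sim F x z := by
    rintro ⟨c, hc, h1⟩
    rw [h1, P.h_smul_right, P.sg_self x hsx, mul_zero] at hxz
    exact hk0 hxz.symm
  have hμz : ∀ c, A P α e f e' f' (c • z) = μ c • A P α e f e' f' z := fun c =>
    D.mu_conn hx hzm hsx hsz hx0 hz0 hns hsxz (hμ c)
  have hadd : ∀ a b, μ (a + b) = μ a + μ b := by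
    intro a b
    apply D.mu_inj hx hsx hx0
    rw [add_smul, ← hμ, ← hμ, ← hμ, add_smul,
      D.A_add ((P.perp e f).smul_mem a hx) ((P.perp e f).smul_mem b hx)]
  have hone : μ 1 = 1 := by
    apply D.mu_inj hx hsx hx0
    rw [← hμ, one_smul, one_smul]
  have hk'0 : P.h (A P α e f e' f' x) (A P α e f e' f' z) ≠ 0 := by
    intro h0
    rw [← D.A_orth hx hzm hsz, hxz] at h0
    exact hk0 h0
  have hmul := (hua μ (fun b => P.bar (μ (P.bar b))) hadd (fun a b => by rw [map_add, hadd, map_add]) hone (by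
    intro b hb0
    have h1 : P.h (P.bar b • x) (b⁻¹ • z) = P.h x z := by
      rw [P.h_smul_left, P.h_smul_right, P.bar_bar, mul_inv_cancel_left₀ hb0]
    have h2 : P.sg (P.bar b • x + b⁻¹ • z) := by
      rw [hP.sg_add_iff (P.sg_smul _ _ hsx) (P.sg_smul _ _ hsz), h1, hxz, hk]
    have h3 := D.h_transfer ((P.perp e f).smul_mem _ hx) ((P.perp e f).smul_mem _ hzm) (P.sg_smul _ _ hsx)
      (P.sg_smul _ _ hsz) h2 hx hzm hsx hsz hsxz h1
    rw [hμ, hμz, P.h_smul_left, P.h_smul_right, ← mul_assoc] at h3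
    exact mul_right_cancel₀ hk'0 (by rw [h3, one_mul]))).2
  have hn : n = μ a := by
    apply D.mu_inj hx hsx hx0
    rw [← h, hμ]
  have hyz : ∀ c : F, c • y = (c * b⁻¹) • z := by
    intro c
    rw [hz, smul_smul, inv_mul_cancel_right₀ hb0]
  have h1 : A P α e f e' f' y = μ b⁻¹ • A P α e f e' f' z := by
    have := hyz 1
    rw [one_smul, one_mul] at this
    rw [this, hμz]
  rw [hyz, hμz, hmul, hn, h1, smul_smul]

end Setup

end PolT

end Cfsg.Agent.H16.Ps
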