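import Cfsg.Agent.H16_Her2

set_option autoImplicit false

/-! Hermitian polar spaces of rank one: automorphisms are induced by semisimilarities. -/

namespace Cfsg.Agent.H16.Ps

open Module

namespace PolT

variable {F V S T : Type*} [Field F] [AddCommGroup V] [Module F V] [Group S] [Group T]

/-- two opposite points and their images, rank one. -/
structure Setup1 (P : PolT F V S T) (α : MulAut T) (e f e' f' : V) : Prop where
  big : P.Big
  he : P.Rel α e e'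
  hf : P.Rel α f f'
  hef : P.h e f = 1
  hef' : P.h e' f' = 1
  hX : ∀ t ∈ P.Q e, ∀ t' ∈ P.Q e', P.pm t' = α (P.pm t) → (t ∈ P.X e ↔ t' ∈ P.X e')
  rk : ∀ x, P.sg x → P.h e x = 0 → x = 0 ∨ Sim F e x

variable {P : PolT F V S T} {α : MulAut T} {e f e' f' : V}

namespace Setup1

variable (D : P.Setup1 α e f e' f') {p : ℕ}

include D

theorem lift {t : S} (ht : t ∈ P.Q e) : ∃ t' ∈ P.Q e', P.pm t' = α (P.pm t) :=
  (D.he.iff _).mp ⟨t, ht, rfl⟩

theorem exAR [Finite V] [Finite F] {u : V} (hu : u ∈ P.perp e f) : ∃ u', P.AR α e f e' f' u u' := by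
  obtain ⟨t, ht, h⟩ := P.exU D.he.sg D.hf.sg D.hef hu
  obtain ⟨t', ht', h'⟩ := D.lift ht
  exact ⟨_, t, ht, t', ht', h', h, rfl⟩

theorem AR_uniq {u u₁ u₂ : V} (h₁ : P.AR α e f e' f' u u₁) (h₂ : P.AR α e f e' f' u u₂) : u₁ = u₂ := by
  obtain ⟨t, ht, t', ht', h1, h2, h3⟩ := h₁
  obtain ⟨s, hs, s', hs', h4, h5, h6⟩ := h₂
  have hm := mul_mem ht (inv_mem hs)
  have hm' := mul_mem ht' (inv_mem hs')
  have h7 : P.uu e f (t * s⁻¹) = 0 := by
    rw [P.uu_mul D.he.sg D.hf.sg D.hef ht (inv_mem hs), P.uu_inv D.he.sg D.hf.sg D.hef hs, h2, h5, add_neg_cancel]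
  have h8 : P.uu e' f' (t' * s'⁻¹) = u₁ - u₂ := by
    rw [P.uu_mul D.he.sg' D.hf.sg' D.hef' ht' (inv_mem hs'), P.uu_inv D.he.sg' D.hf.sg' D.hef' hs', h3, h6,
      sub_eq_add_neg]
  have h9 : P.pm (t' * s'⁻¹) = α (P.pm (t * s⁻¹)) := by
    rw [map_mul, map_mul, map_inv, map_inv, map_mul, map_inv, h1, h4]
  have h10 := (P.mem_X_iff D.he.sg D.hf.sg D.hef hm).mpr h7
  rw [D.hX _ hm _ hm' h9, P.mem_X_iff D.he.sg' D.hf.sg' D.hef' hm', h8] at h10
  exact sub_eq_zero.mp h10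

theorem AR_add {u u' w w' : V} (h₁ : P.AR α e f e' f' u u') (h₂ : P.AR α e f e' f' w w') :
    P.AR α e f e' f' (u + w) (u' + w') := by
  obtain ⟨t, ht, t', ht', h1, h2, h3⟩ := h₁
  obtain ⟨s, hs, s', hs', h4, h5, h6⟩ := h₂
  refine ⟨t * s, mul_mem ht hs, t' * s', mul_mem ht' hs', ?_, ?_, ?_⟩
  · rw [map_mul, map_mul, map_mul, h1, h4]
  · rw [P.uu_mul D.he.sg D.hf.sg D.hef ht hs, h2, h5]
  · rw [P.uu_mul D.he.sg' D.hf.sg' D.hef' ht' hs', h3, h6]

variable [Finite V] [Finite F]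

theorem A_spec {u : V} (hu : u ∈ P.perp e f) : P.AR α e f e' f' u (Setup.A P α e f e' f' u) := by
  have h := D.exAR hu
  rw [Setup.A, dif_pos h]
  exact h.choose_spec

theorem A_eq {u u' : V} (h : P.AR α e f e' f' u u') : Setup.A P α e f e' f' u = u' := by
  have h' : ∃ u', P.AR α e f e' f' u u' := ⟨u', h⟩
  rw [Setup.A, dif_pos h']
  exact D.AR_uniq h'.choose_spec h

theorem A_add {u w : V} (hu : u ∈ P.perp e f) (hw : w ∈ P.perp e f) :
    Setup.A P α e f e' f' (u + w) = Setup.A P α e f e' f' u + Setup.A P α e f e' f' w :=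
  D.A_eq (D.AR_add (D.A_spec hu) (D.A_spec hw))

theorem A_zero : Setup.A P α e f e' f' 0 = 0 := by
  have := D.A_add (P.perp e f).zero_mem (P.perp e f).zero_mem
  rw [add_zero] at this
  simpa using this

theorem A_mem {u : V} (hu : u ∈ P.perp e f) : Setup.A P α e f e' f' u ∈ P.perp e' f' := by
  obtain ⟨t, ht, t', ht', h1, h2, h3⟩ := D.A_spec hu
  rw [← h3]
  exact P.uu_mem D.he.sg' D.hf.sg' D.hef' _

theorem A_inj {u : V} (hu : u ∈ P.perp e f) (h : Setup.A P α e f e' f' u = 0) : u = 0 := by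
  obtain ⟨t, ht, t', ht', h1, h2, h3⟩ := D.A_spec hu
  rw [h] at h3
  have h4 := (P.mem_X_iff D.he.sg' D.hf.sg' D.hef' ht').mpr h3
  rw [← D.hX _ ht _ ht' h1, P.mem_X_iff D.he.sg D.hf.sg D.hef ht, h2] at h4
  exact h4

theorem A_uu {s s' : S} (hs : s ∈ P.Q e) (hs' : s' ∈ P.Q e') (h : P.pm s' = α (P.pm s)) :
    Setup.A P α e f e' f' (P.uu e f s) = P.uu e' f' s' := D.A_eq ⟨s, hs, s', hs', h, rfl, rfl⟩

theorem lift_uniq {t t' : S} (ht : t ∈ P.Q e') (ht' : t' ∈ P.Q e') (h : P.pm t = P.pm t') : t = t' :=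
  P.Q_lift D.he.sg' D.he.ne' ht ht' h

variable {σ : F ≃+* F} (hσ : ∀ a, σ (P.bar a) = P.bar (σ a))
  (hA : ∀ (a : F) (u : V), u ∈ P.perp e f → Setup.A P α e f e' f' (a • u) = σ a • Setup.A P α e f e' f' u)

theorem g_add (k : F) (x y : V) : Setup.g P α e f e' f' σ k (x + y) =
    Setup.g P α e f e' f' σ k x + Setup.g P α e f e' f' σ k y := by
  rw [Setup.g, Setup.g, Setup.g, P.prj_add, D.A_add (P.prj_mem D.he.sg D.hf.sg D.hef x) (P.prj_mem D.he.sg D.hf.sg D.hef y),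
    P.h_add_right, P.h_add_right, mul_add, map_add, map_add, add_smul, add_smul]
  abel

include hA in
theorem g_smul (k a : F) (x : V) : Setup.g P α e f e' f' σ k (a • x) = σ a • Setup.g P α e f e' f' σ k x := by
  rw [Setup.g, Setup.g, P.prj_smul, hA a _ (P.prj_mem D.he.sg D.hf.sg D.hef x), P.h_smul_right, P.h_smul_right, smul_add,
    smul_add, smul_smul (σ a), smul_smul (σ a), ← map_mul, ← map_mul]
  congr 4
  ring

include hσ in
theorem g_h {k : F} (hb : P.bar k = k) (hk : ∀ u ∈ P.perp e f, ∀ w ∈ P.perp e f,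
      P.h (Setup.A P α e f e' f' u) (Setup.A P α e f e' f' w) = k * σ (P.h u w)) (x y : V) :
    P.h (Setup.g P α e f e' f' σ k x) (Setup.g P α e f e' f' σ k y) = k * σ (P.h x y) := by
  have hx := P.prj_mem D.he.sg D.hf.sg D.hef x
  have hy := P.prj_mem D.he.sg D.hf.sg D.hef y
  have hAx := D.A_mem hx
  have hAy := D.A_mem hy
  have h1 : P.h x y = P.bar (P.ε * P.h f x) * P.h e y + P.ε * (P.bar (P.h e x) * (P.ε * P.h f y)) +
      P.h (P.prj e f x) (P.prj e f y) := by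
    conv_lhs => rw [P.eq_prj e f x, P.eq_prj e f y]
    simp only [P.h_add_left, P.h_add_right, P.h_smul_left, P.h_smul_right, P.sg_self e D.he.sg,
      P.sg_self f D.hf.sg, D.hef, P.h_fe D.hef, hx.1, hx.2, hy.1, hy.2, P.h_comm_zero.mp hx.1,
      P.h_comm_zero.mp hx.2]
    ring
  rw [Setup.g, Setup.g, h1]
  simp only [P.h_add_left, P.h_add_right, P.h_smul_left, P.h_smul_right, P.sg_self e' D.he.sg',
      P.sg_self f' D.hf.sg', D.hef', P.h_fe D.hef', hAx.1, hAx.2, hAy.1, hAy.2, P.h_comm_zero.mp hAx.1,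
      P.h_comm_zero.mp hAx.2, hk _ hx _ hy, map_add, map_mul, Setup.sigma_eps, P.bar_eps, hσ, hb]
  ring

theorem g_e (k : F) : Setup.g P α e f e' f' σ k e = k • e' := by
  rw [Setup.g, P.h_fe D.hef, P.eps_mul, P.sg_self e D.he.sg, P.prj_e D.he.sg D.hf.sg D.hef, D.A_zero]
  simp

/-- on opposite points. -/
theorem rel_g_opp {k : F}
    (hco : ∀ t ∈ P.Q e, ∀ t' ∈ P.Q e', P.pm t' = α (P.pm t) → P.co f' t' = k * σ (P.co f t))
    {x : V} (hx : P.sg x) (hex : P.h e x = 1) : P.Rel α x (Setup.g P α e f e' f' σ k x) := by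
  obtain ⟨t, ht, hr⟩ := P.exQ D.he.sg D.hf.sg hx D.hef hex
  obtain ⟨t', ht', h⟩ := D.lift ht
  have h1 := D.hf.act h
  rw [hr] at h1
  have h2 : Setup.g P α e f e' f' σ k x = P.r t' f' := by
    rw [r_f_co D.he.sg' D.hf.sg' D.hef' ht', hco t ht t' ht' h, Setup.g, hex,
      ← D.A_eq ⟨t, ht, t', ht', h, rfl, rfl⟩, co, hr, PolG.uu, hr, map_one, one_smul, smul_smul,
      mul_comm k]
    abel
  rw [h2]
  exact h1

include hA in
theorem rel_g {k : F} (hk0 : k ≠ 0)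
    (hco : ∀ t ∈ P.Q e, ∀ t' ∈ P.Q e', P.pm t' = α (P.pm t) → P.co f' t' = k * σ (P.co f t))
    {x : V} (hx : P.sg x) (hx0 : x ≠ 0) : P.Rel α x (Setup.g P α e f e' f' σ k x) := by
  by_cases hex : P.h e x = 0
  · rcases D.rk x hx hex with h | ⟨c, hc, rfl⟩
    · exact absurd h hx0
    · rw [D.g_smul hA, D.g_e]
      refine D.he.sim (Sim.smul hc) ((Sim.smul hk0).trans (Sim.smul ?_))
      rwa [Ne, map_eq_zero]
  · have h1 := D.rel_g_opp hco (x := (P.h e x)⁻¹ • x) (P.sg_smul _ _ hx)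
      (by rw [P.h_smul_right, inv_mul_cancel₀ hex])
    rw [D.g_smul hA, map_inv₀] at h1
    have h2 : σ (P.h e x) ≠ 0 := by rwa [Ne, map_eq_zero]
    exact h1.sim (Sim.smul (inv_ne_zero hex)).symm (Sim.smul (inv_ne_zero h2)).symm

include hA hσ in
/-- the main theorem. -/
theorem main {k : F} (hk0 : k ≠ 0) (hb : P.bar k = k) (hk : ∀ u ∈ P.perp e f, ∀ w ∈ P.perp e f,
      P.h (Setup.A P α e f e' f' u) (Setup.A P α e f e' f' w) = k * σ (P.h u w))
    (hco : ∀ t ∈ P.Q e, ∀ t' ∈ P.Q e', P.pm t' = α (P.pm t) → P.co f' t' = k * σ (P.co f t))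
    (hN : ∀ x y, P.sg x → P.sg y → x ≠ 0 → y ≠ 0 → ∃ z, P.sg z ∧ P.h x z ≠ 0 ∧ P.h y z ≠ 0)
    (hsp : ∀ x, x ∈ Submodule.span F {y | P.sg y})
    {s s' : S} (h : P.pm s' = α (P.pm s)) :
    ∃ c : F, c ≠ 0 ∧ ∀ x, P.r s' (Setup.g P α e f e' f' σ k x) = c • Setup.g P α e f e' f' σ k (P.r s x) := by
  have hgh := D.g_h hσ hb hk
  have h1 : ∀ x, P.sg x → x ≠ 0 → ∃ c : F, c ≠ 0 ∧
      P.r s' (Setup.g P α e f e' f' σ k x) = c • Setup.g P α e f e' f' σ k (P.r s x) := by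
    intro x hx hx0
    have h2 := (D.rel_g hA hk0 hco hx hx0).act h
    have h3 := D.rel_g hA hk0 hco (P.r_sg s x hx) (P.r_ne_zero s hx0)
    exact Rel.uniq D.big h3 h2
  have h2 : ∀ x y (a b : F), P.h x y ≠ 0 → P.r s' (Setup.g P α e f e' f' σ k x) = a • Setup.g P α e f e' f' σ k (P.r s x) →
      P.r s' (Setup.g P α e f e' f' σ k y) = b • Setup.g P α e f e' f' σ k (P.r s y) → P.bar a * b = 1 := by
    intro x y a b hxy h3 h4
    have h5 := P.r_h s' (Setup.g P α e f e' f' σ k x) (Setup.g P α e f e' f' σ k y)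
    rw [h3, h4, P.h_smul_left, P.h_smul_right, hgh, hgh, P.r_h] at h5
    have h6 : k * σ (P.h x y) ≠ 0 := mul_ne_zero hk0 (by rwa [Ne, map_eq_zero])
    have h7 : (P.bar a * b - 1) * (k * σ (P.h x y)) = 0 := by linear_combination h5
    exact sub_eq_zero.mp ((mul_eq_zero.mp h7).resolve_right h6)
  obtain ⟨c, hc, h3⟩ := h1 e D.he.sg D.he.ne
  refine ⟨c, hc, ?_⟩
  have hg0 : Setup.g P α e f e' f' σ k 0 = 0 := by
    have := D.g_smul hA k 0 0
    rw [zero_smul, map_zero, zero_smul] at this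
    exact this
  have h4 : ∀ y, P.sg y → P.r s' (Setup.g P α e f e' f' σ k y) = c • Setup.g P α e f e' f' σ k (P.r s y) := by
    intro y hy
    by_cases hy0 : y = 0
    · rw [hy0, map_zero, hg0, map_zero, smul_zero]
    obtain ⟨z, hz, h5, h6⟩ := hN e y D.he.sg hy D.he.ne hy0
    have hz0 : z ≠ 0 := by rintro rfl; exact h5 (P.h_zero_right _)
    obtain ⟨b, hb', h7⟩ := h1 z hz hz0
    obtain ⟨d, hd, h8⟩ := h1 y hy hy0
    have h9 := h2 z e b c (P.h_comm_ne h5) h7 h3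
    have h10 := h2 z y b d (P.h_comm_ne h6) h7 h8
    have h11 : d = c := mul_left_cancel₀ (P.bar_ne_zero hb') (by rw [h9, h10])
    rw [h8, h11]
  intro x
  induction hsp x using Submodule.span_induction with
  | mem y hy => exact h4 y hy
  | zero => rw [map_zero, hg0, map_zero, smul_zero]
  | add x y _ _ h5 h6 => rw [D.g_add, map_add, h5, h6, map_add, D.g_add, smul_add]
  | smul a x _ h5 => rw [D.g_smul hA, map_smul, h5, map_smul, D.g_smul hA, smul_comm]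

end Setup1

end PolT

end Cfsg.Agent.H16.Ps
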