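import Cfsg.Agent.H16_Her3

set_option autoImplicit false

/-! Hermitian polar spaces of rank one: the torus argument. -/

namespace Cfsg.Agent.H16.Ps

open Module

namespace PolT

variable {F V S T : Type*} [Field F] [AddCommGroup V] [Module F V] [Group S] [Group T]

/-- torus elements. -/
def Tor (P : PolT F V S T) (e f : V) (t : F) (s : S) : Prop :=
  P.r s e = t • e ∧ P.r s f = (P.bar t)⁻¹ • f ∧ ∀ w ∈ P.perp e f, P.r s w = (P.bar t * t⁻¹) • w

variable {P : PolT F V S T} {α : MulAut T} {e f e' f' : V}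

theorem uu_of (hf : P.sg f) (hef : P.h e f = 1) {s : S} {u : V} {c : F} (hu : u ∈ P.perp e f)
    (he : P.sg e) (h : P.r s f = f + u + c • e) : P.uu e f s = u ∧ P.co f s = c := by
  constructor
  · rw [PolG.uu, h, P.prj_add, P.prj_add, P.prj_f hf hef, zero_add, P.prj_of_mem hu.1 hu.2, P.prj_smul,
      P.prj_e he hf hef, smul_zero, add_zero]
  · rw [co, h, P.h_add_right, P.h_add_right, P.sg_self f hf, hu.2, P.h_smul_right, P.h_fe hef]
    linear_combination c * P.eps_mul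

theorem tor_conj (he : P.sg e) (hf : P.sg f) (hef : P.h e f = 1) {t : F} (ht0 : t ≠ 0) {s : S}
    (hs : P.Tor e f t s) {q : S} (hq : q ∈ P.Q e) : s * q * s⁻¹ ∈ P.Q e ∧
      P.uu e f (s * q * s⁻¹) = (P.bar t ^ 2 * t⁻¹) • P.uu e f q ∧
      P.co f (s * q * s⁻¹) = (t * P.bar t) * P.co f q := by
  obtain ⟨h1, h2, h3⟩ := hs
  have hb := P.bar_ne_zero ht0
  have h4 : P.r s⁻¹ f = P.bar t • f := by
    apply P.r_injective s
    rw [P.r_r_inv, P.r_smul, h2, smul_smul, mul_inv_cancel₀ hb, one_smul]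
  refine ⟨?_, ?_⟩
  · have h5 : Sim F e (P.r s e) := ⟨t, ht0, h1⟩
    rw [P.Q_sim h5, P.conj_mem_Q]
    exact hq
  · refine uu_of hf hef ((P.perp e f).smul_mem _ (P.uu_mem he hf hef q)) he ?_
    rw [P.r_mul, P.r_mul, h4, P.r_smul, P.r_smul, r_f_co he hf hef hq, P.r_add, P.r_add, P.r_smul, h1, h2,
      h3 _ (P.uu_mem he hf hef q), smul_add, smul_add, smul_smul, smul_smul, smul_smul, smul_smul,
      mul_inv_cancel₀ hb, one_smul]
    congr 2
    · congr 1; ring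
    · ring

namespace Setup1

variable (D : P.Setup1 α e f e' f') [Finite V] [Finite F]

include D

theorem torus (hP : P.Herm)
    (tor : ∀ t : F, t ≠ 0 → ∃ s s' : S, ∃ t' : F, t' ≠ 0 ∧ P.pm s' = α (P.pm s) ∧ P.Tor e f t s ∧ P.Tor e' f' t' s')
    {w₀ : V} (hw₀ : w₀ ∈ P.perp e f) (hw0 : w₀ ≠ 0) (h1d : ∀ u ∈ P.perp e f, ∃ a : F, u = a • w₀)
    (h1d' : ∀ v ∈ P.perp e' f', v ≠ 0 → ∀ u ∈ P.perp e' f', ∃ a : F, u = a • v)
    (hgen : ∀ K : Subfield F, (∀ t : F, t ≠ 0 → P.bar t ^ 2 * t⁻¹ ∈ K) → K = ⊤)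
    (hnt : ∃ t : F, t * P.bar t = 1 ∧ P.bar t ^ 2 * t⁻¹ ≠ 1) :
    ∃ (σ : F ≃+* F) (k : F), (∀ (a : F) (u : V), u ∈ P.perp e f →
        Setup.A P α e f e' f' (a • u) = σ a • Setup.A P α e f e' f' u) ∧ k ≠ 0 ∧ P.bar k = k ∧
      (∀ u ∈ P.perp e f, ∀ w ∈ P.perp e f,
        P.h (Setup.A P α e f e' f' u) (Setup.A P α e f e' f' w) = k * σ (P.h u w)) ∧
      ∀ t ∈ P.Q e, ∀ t' ∈ P.Q e', P.pm t' = α (P.pm t) → P.co f' t' = k * σ (P.co f t) := by
  have he := D.he.sg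
  have hf := D.hf.sg
  have hef := D.hef
  have he' := D.he.sg'
  have hf' := D.hf.sg'
  have hef' := D.hef'
  set w₁ := Setup.A P α e f e' f' w₀ with hw₁
  have hw₁m : w₁ ∈ P.perp e' f' := D.A_mem hw₀
  have hw₁0 : w₁ ≠ 0 := fun h => hw0 (D.A_inj hw₀ h)
  -- the function μ
  have hex : ∀ a : F, ∃ b : F, Setup.A P α e f e' f' (a • w₀) = b • w₁ := fun a =>
    h1d' w₁ hw₁m hw₁0 _ (D.A_mem ((P.perp e f).smul_mem a hw₀))
  choose μ hμ using hex
  have hinj : ∀ {a b : F}, a • w₁ = b • w₁ → a = b := fun h => smul_left_injective F hw₁0 h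
  have hadd : ∀ a b, μ (a + b) = μ a + μ b := by
    intro a b
    apply hinj
    rw [← hμ, add_smul, D.A_add ((P.perp e f).smul_mem a hw₀) ((P.perp e f).smul_mem b hw₀), hμ, hμ, add_smul]
  have hone : μ 1 = 1 := by
    apply hinj
    rw [← hμ, one_smul, one_smul]
  have hzero : μ 0 = 0 := by
    apply hinj
    rw [← hμ, zero_smul, zero_smul, D.A_zero]
  -- equivariance
  have hequi : ∀ t : F, t ≠ 0 → ∃ s s' : S, ∃ t' : F, t' ≠ 0 ∧ P.pm s' = α (P.pm s) ∧ P.Tor e f t s ∧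
      P.Tor e' f' t' s' ∧ ∀ u ∈ P.perp e f, Setup.A P α e f e' f' ((P.bar t ^ 2 * t⁻¹) • u) =
        (P.bar t' ^ 2 * t'⁻¹) • Setup.A P α e f e' f' u := by
    intro t ht
    obtain ⟨s, s', t', ht', hss, h1, h2⟩ := tor t ht
    refine ⟨s, s', t', ht', hss, h1, h2, fun u hu => ?_⟩
    obtain ⟨q, hq, q', hq', h3, h4, h5⟩ := D.A_spec hu
    obtain ⟨c1, c2, -⟩ := tor_conj he hf hef ht h1 hq
    obtain ⟨d1, d2, -⟩ := tor_conj he' hf' hef' ht' h2 hq'
    rw [← h4, ← c2, D.A_uu c1 d1 (by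
      rw [map_mul, map_mul, map_inv, map_mul, map_mul, map_inv, map_mul, map_mul, map_inv, hss, h3]), d2]
    congr 1
    rw [h5, h4]
  -- the multiplicative set
  let K : Subfield F :=
    { carrier := {x | ∀ a, μ (x * a) = μ x * μ a}
      mul_mem' := by
        intro x y hx hy a
        rw [mul_assoc, hx, hy, hx y, mul_assoc]
      one_mem' := by intro a; rw [one_mul, hone, one_mul]
      add_mem' := by
        intro x y hx hy a
        rw [add_mul, hadd, hx, hy, hadd, add_mul]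
      zero_mem' := by intro a; rw [zero_mul, hzero, zero_mul]
      neg_mem' := by
        intro x hx a
        have hneg : ∀ y, μ (-y) = -μ y := fun y => by
          have := hadd y (-y); rw [add_neg_cancel, hzero] at this
          exact (neg_eq_of_add_eq_zero_right this.symm).symm
        rw [neg_mul, hneg, hx, hneg, neg_mul]
      inv_mem' := by
        intro x hx a
        by_cases hx0 : x = 0
        · rw [hx0, inv_zero, zero_mul, hzero, zero_mul]
        have h1 := hx (x⁻¹ * a)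
        rw [mul_inv_cancel_left₀ hx0] at h1
        have h2 := hx x⁻¹
        rw [mul_inv_cancel₀ hx0, hone] at h2
        have h3 : μ x ≠ 0 := by intro h; rw [h, zero_mul] at h2; exact one_ne_zero h2
        have h4 : μ x⁻¹ = (μ x)⁻¹ := eq_inv_of_mul_eq_one_right h2.symm
        rw [h4, h1, inv_mul_cancel_left₀ h3] }
  have hKX : ∀ t : F, t ≠ 0 → P.bar t ^ 2 * t⁻¹ ∈ K := by
    intro t ht a
    obtain ⟨s, s', t', ht', -, -, -, h1⟩ := hequi t ht
    have h2 : ∀ a, μ ((P.bar t ^ 2 * t⁻¹) * a) = (P.bar t' ^ 2 * t'⁻¹) * μ a := by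
      intro a
      apply hinj
      rw [← hμ, ← smul_smul, h1 _ ((P.perp e f).smul_mem a hw₀), hμ, smul_smul]
    have h3 := h2 1
    rw [mul_one, hone, mul_one] at h3
    rw [h2, h3]
  have hKtop := hgen K hKX
  have hmul : ∀ x a, μ (x * a) = μ x * μ a := by
    intro x
    have : x ∈ K := by rw [hKtop]; exact Subfield.mem_top x
    exact this
  let τ : F →+* F := ⟨⟨⟨μ, hone⟩, hmul⟩, hzero, hadd⟩
  have hbij : Function.Bijective τ := ⟨τ.injective, Finite.surjective_of_injective τ.injective⟩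
  let σ : F ≃+* F := RingEquiv.ofBijective τ hbij
  have hσμ : ∀ a, σ a = μ a := fun a => rfl
  have hσ : ∀ a, σ (P.bar a) = P.bar (σ a) := bar_comm P.bar σ
  have hA : ∀ (a : F) (u : V), u ∈ P.perp e f →
        Setup.A P α e f e' f' (a • u) = σ a • Setup.A P α e f e' f' u := by
    intro a u hu
    obtain ⟨b, rfl⟩ := h1d u hu
    rw [smul_smul, hμ, hμ, hmul, smul_smul, hσμ]
  -- the norm of the torus parameter
  have hequi2 : ∀ t : F, t ≠ 0 → ∃ s s' : S, ∃ t' : F, t' ≠ 0 ∧ P.pm s' = α (P.pm s) ∧ P.Tor e f t s ∧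
      P.Tor e' f' t' s' ∧ t' * P.bar t' = σ (t * P.bar t) := by
    intro t ht
    obtain ⟨s, s', t', ht', hss, h1, h2, h3⟩ := hequi t ht
    refine ⟨s, s', t', ht', hss, h1, h2, ?_⟩
    have h4 := h3 w₀ hw₀
    rw [hA _ _ hw₀] at h4
    have h5 := hinj h4
    have hb' := P.bar_ne_zero ht'
    have hb := P.bar_ne_zero ht
    have h6 : (P.bar t' ^ 2 * t'⁻¹) * P.bar (P.bar t' ^ 2 * t'⁻¹) = t' * P.bar t' := by
      rw [map_mul, map_pow, P.bar_bar, map_inv₀]
      field_simp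
    have h7 : (P.bar t ^ 2 * t⁻¹) * P.bar (P.bar t ^ 2 * t⁻¹) = t * P.bar t := by
      rw [map_mul, map_pow, P.bar_bar, map_inv₀]
      field_simp
    rw [← h6, ← h5, ← hσ, ← map_mul, h7]
  -- traces
  have htr : ∀ {e f : V}, P.sg e → P.sg f → P.h e f = 1 → ∀ x ∈ P.Q e, P.uu e f x = 0 →
      P.co f x + P.bar (P.co f x) = 0 := by
    intro e f he hf hef x hx hu
    have h1 := P.r_sg x f hf
    rw [r_f_co he hf hef hx, hu, add_zero, hP.sg_add_iff hf (P.sg_smul _ e he), P.h_smul_right, P.h_fe hef,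
      hP.eps, mul_one] at h1
    exact h1
  have hXex : ∀ c : F, c + P.bar c = 0 → ∃ x ∈ P.Q e, P.uu e f x = 0 ∧ P.co f x = c := by
    intro c hc
    have h1 : P.sg (f + c • e) := by
      rw [hP.sg_add_iff hf (P.sg_smul _ e he), P.h_smul_right, P.h_fe hef, hP.eps, mul_one, hc]
    have h2 : P.h e (f + c • e) = 1 := by
      rw [P.h_add_right, hef, P.h_smul_right, P.sg_self e he, mul_zero, add_zero]
    obtain ⟨x, hx, hxf⟩ := P.exQ he hf h1 hef h2
    obtain ⟨h3, h4⟩ := uu_of (u := 0) hf hef (P.perp e f).zero_mem he (by rw [hxf, add_zero])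
    exact ⟨x, hx, h3, h4⟩
  obtain ⟨k₀, hk₀0, hk₀⟩ := hP.ne
  obtain ⟨x₀, hx₀, hx₀u, hx₀c⟩ := hXex k₀ hk₀
  obtain ⟨x₀', hx₀', hx₀''⟩ := D.lift hx₀
  have hx₀'u : P.uu e' f' x₀' = 0 := by rw [← D.A_uu hx₀ hx₀' hx₀'', hx₀u, D.A_zero]
  have hψ0 : P.co f' x₀' ≠ 0 := by
    intro h0
    have h1 : x₀' = 1 := P.Q_ext hef' hx₀' (one_mem _) (by
      rw [r_f_co he' hf' hef' hx₀', hx₀'u, h0, zero_smul, add_zero, add_zero, P.r_one])
    have h2 : P.pm x₀ = 1 := by
      apply α.injective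
      rw [← hx₀'', h1, map_one, map_one]
    have h3 : x₀ = 1 := P.Q_lift he D.he.ne hx₀ (one_mem _) (by rw [h2, map_one])
    rw [h3, co_one hf] at hx₀c
    exact hk₀0 hx₀c.symm
  have hσk₀ : σ k₀ ≠ 0 := by rwa [Ne, map_eq_zero]
  set k := P.co f' x₀' * (σ k₀)⁻¹ with hk
  have hk0 : k ≠ 0 := mul_ne_zero hψ0 (inv_ne_zero hσk₀)
  have hbk₀ : P.bar k₀ = -k₀ := eq_neg_of_add_eq_zero_right hk₀
  have hkb : P.bar k = k := by
    have h1 := eq_neg_of_add_eq_zero_right (htr he' hf' hef' x₀' hx₀' hx₀'u)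
    rw [hk, map_mul, map_inv₀, ← hσ, hbk₀, map_neg, h1, inv_neg, neg_mul_neg]
  -- on the centre
  have hcoX : ∀ x ∈ P.Q e, ∀ x' ∈ P.Q e', P.pm x' = α (P.pm x) → P.uu e f x = 0 →
      P.co f' x' = k * σ (P.co f x) := by
    intro x hx x' hx' hxx hu
    set c := P.co f x with hc
    have hcb := eq_neg_of_add_eq_zero_right (htr he hf hef x hx hu)
    by_cases hc0 : c = 0
    · have h1 : x = 1 := P.Q_ext hef hx (one_mem _) (by
        rw [r_f_co he hf hef hx, hu, ← hc, hc0, zero_smul, add_zero, add_zero, P.r_one])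
      have h2 : x' = 1 := D.lift_uniq hx' (one_mem _) (by rw [hxx, h1, map_one, map_one])
      rw [h2, co_one hf', hc0, map_zero, mul_zero]
    · obtain ⟨t, ht⟩ := hP.nm (c * k₀⁻¹) (by
        rw [map_mul, map_inv₀, hbk₀, ← hc] at *
        rw [hcb, inv_neg, neg_mul_neg])
      have ht0 : t ≠ 0 := by
        rintro rfl
        rw [zero_mul] at ht
        exact mul_ne_zero hc0 (inv_ne_zero hk₀0) ht.symm
      obtain ⟨s, s', t', ht'0, hss, h1, h2, h3⟩ := hequi2 t ht0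
      obtain ⟨c1, c2, c3⟩ := tor_conj he hf hef ht0 h1 hx₀
      obtain ⟨d1, d2, d3⟩ := tor_conj he' hf' hef' ht'0 h2 hx₀'
      have h4 : x = s * x₀ * s⁻¹ := by
        refine P.Q_ext hef hx c1 ?_
        rw [r_f_co he hf hef hx, r_f_co he hf hef c1, c2, c3, hx₀u, hu, smul_zero, hx₀c, ht,
          inv_mul_cancel_right₀ hk₀0]
      have h5 : x' = s' * x₀' * s'⁻¹ := by
        refine D.lift_uniq hx' d1 ?_
        rw [hxx, h4, map_mul, map_mul, map_inv, map_mul, map_mul, map_inv, map_mul, map_mul, map_inv, hss, hx₀'']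
      rw [h5, d3, h3, ht, map_mul, map_inv₀, hk]
      field_simp
  -- the form
  have hcomm : ∀ u ∈ P.perp e f, ∀ w ∈ P.perp e f,
      P.h (Setup.A P α e f e' f' w) (Setup.A P α e f e' f' u) - P.h (Setup.A P α e f e' f' u) (Setup.A P α e f e' f' w) =
        k * σ (P.h w u - P.h u w) := by
    intro u hu w hw
    obtain ⟨a, ha, a', ha', h1, h2, h3⟩ := D.A_spec hu
    obtain ⟨b, hb, b', hb', h4, h5, h6⟩ := D.A_spec hw
    have key : ∀ {e f : V} (_ : P.sg e) (_ : P.sg f) (_ : P.h e f = 1) {a b : S} (_ : a ∈ P.Q e)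
        (_ : b ∈ P.Q e), (a * b * (b * a)⁻¹ ∈ P.Q e) ∧ P.uu e f (a * b * (b * a)⁻¹) = 0 ∧
        P.co f (a * b * (b * a)⁻¹) = P.h (P.uu e f b) (P.uu e f a) - P.h (P.uu e f a) (P.uu e f b) := by
      intro e f he hf hef a b ha hb
      have hm := mul_mem ha hb
      have hm' := mul_mem hb ha
      have hm2 := mul_mem hm (inv_mem hm')
      have e1 : P.uu e f (a * b * (b * a)⁻¹) = 0 := by
        rw [P.uu_mul he hf hef hm (inv_mem hm'), P.uu_inv he hf hef hm', P.uu_mul he hf hef ha hb,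
          P.uu_mul he hf hef hb ha]
        abel
      refine ⟨hm2, e1, ?_⟩
      have e2 := co_mul he hf hef hm2 hm'
      rw [e1, P.h_zero_left, inv_mul_cancel_right, co_mul he hf hef ha hb, co_mul he hf hef hb ha, hP.eps] at e2
      linear_combination -e2
    obtain ⟨k1, k2, k3⟩ := key he hf hef ha hb
    obtain ⟨l1, l2, l3⟩ := key he' hf' hef' ha' hb'
    have h7 := hcoX _ k1 _ l1 (by
      simp only [map_mul, map_inv, h1, h4]) k2
    rw [k3, l3, h2, h3, h5, h6] at h7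
    exact h7
  have hkw : P.h w₁ w₁ = k * σ (P.h w₀ w₀) := by
    obtain ⟨c, hc⟩ := hP.nid
    have h1 := hcomm (c • w₀) ((P.perp e f).smul_mem c hw₀) w₀ hw₀
    rw [hA c w₀ hw₀, P.h_smul_right, P.h_smul_left, P.h_smul_right, P.h_smul_left, ← hσ] at h1
    simp only [map_sub, map_mul] at h1
    have h2 : σ c - σ (P.bar c) ≠ 0 := by
      intro h
      exact hc (σ.injective (sub_eq_zero.mp h)).symm
    have h3 : (σ c - σ (P.bar c)) * P.h w₁ w₁ = (σ c - σ (P.bar c)) * (k * σ (P.h w₀ w₀)) := by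
      linear_combination h1
    exact mul_left_cancel₀ h2 h3
  have hkh : ∀ u ∈ P.perp e f, ∀ w ∈ P.perp e f,
        P.h (Setup.A P α e f e' f' u) (Setup.A P α e f e' f' w) = k * σ (P.h u w) := by
    intro u hu w hw
    obtain ⟨a, rfl⟩ := h1d u hu
    obtain ⟨b, rfl⟩ := h1d w hw
    rw [hA a w₀ hw₀, hA b w₀ hw₀, P.h_smul_right, P.h_smul_left, P.h_smul_right, P.h_smul_left, hkw, map_mul, map_mul,
      hσ]
    ring
  refine ⟨σ, k, hA, hk0, hkb, hkh, ?_⟩
  -- the defect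
  intro q hq q' hq' hqq
  obtain ⟨t, ht1, ht2⟩ := hnt
  have ht0 : t ≠ 0 := by rintro rfl; rw [zero_mul] at ht1; exact zero_ne_one ht1
  obtain ⟨s, s', t', ht'0, hss, h1, h2, h3⟩ := hequi2 t ht0
  rw [ht1, map_one] at h3
  set x := P.bar t ^ 2 * t⁻¹ with hx
  have hx1 : x - 1 ≠ 0 := sub_ne_zero.mpr ht2
  -- element with smaller vector
  obtain ⟨a, ha, hau⟩ := P.exU he hf hef ((P.perp e f).smul_mem (x - 1)⁻¹ (P.uu_mem he hf hef q))
  obtain ⟨a', ha', haa⟩ := D.lift ha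
  obtain ⟨c1, c2, c3⟩ := tor_conj he hf hef ht0 h1 ha
  obtain ⟨d1, d2, d3⟩ := tor_conj he' hf' hef' ht'0 h2 ha'
  have hm := mul_mem c1 (inv_mem ha)
  have hm' := mul_mem d1 (inv_mem ha')
  -- q = z * (s a s⁻¹ a⁻¹) with z central
  have huq : P.uu e f (q * (s * a * s⁻¹ * a⁻¹)⁻¹) = 0 := by
    rw [P.uu_mul he hf hef hq (inv_mem hm), P.uu_inv he hf hef hm, P.uu_mul he hf hef c1 (inv_mem ha),
      P.uu_inv he hf hef ha, c2, hau, ← hx, smul_smul]
    have h4 : (x * (x - 1)⁻¹) • P.uu e f q + -((x - 1)⁻¹ • P.uu e f q) = P.uu e f q := by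
      rw [← neg_smul, ← add_smul]
      have : x * (x - 1)⁻¹ + -(x - 1)⁻¹ = 1 := by field_simp; ring
      rw [this, one_smul]
    rw [h4, add_neg_cancel]
  have hzz := mul_mem hq (inv_mem hm)
  have hzz' := mul_mem hq' (inv_mem hm')
  have h4 := hcoX _ hzz _ hzz' (by simp only [map_mul, map_inv, hqq, hss, haa]) huq
  -- the defect of the commutator
  have hAu : Setup.A P α e f e' f' (P.uu e f a) = P.uu e' f' a' := D.A_uu ha ha' haa
  have hAc : Setup.A P α e f e' f' (P.uu e f (s * a * s⁻¹)) = P.uu e' f' (s' * a' * s'⁻¹) :=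
    D.A_uu c1 d1 (by simp only [map_mul, map_inv, hss, haa])
  have hinvco : ∀ {e f : V} (_ : P.sg e) (_ : P.sg f) (_ : P.h e f = 1) {a : S} (_ : a ∈ P.Q e),
      P.co f a⁻¹ = -P.co f a - P.h (P.uu e f a) (P.uu e f a) := by
    intro e f he hf hef a ha
    have e2 := co_mul he hf hef ha (inv_mem ha)
    rw [mul_inv_cancel, co_one hf, P.uu_inv he hf hef ha, P.h_neg_right, hP.eps] at e2
    linear_combination -e2
  have h5 : P.co f' (s' * a' * s'⁻¹ * a'⁻¹) = k * σ (P.co f (s * a * s⁻¹ * a⁻¹)) := by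
    rw [co_mul he' hf' hef' d1 (inv_mem ha'), co_mul he hf hef c1 (inv_mem ha), hinvco he' hf' hef' ha',
      hinvco he hf hef ha, c3, d3, P.uu_inv he' hf' hef' ha', P.uu_inv he hf hef ha, P.h_neg_right, P.h_neg_right,
      ← hAc, ← hAu, hkh _ (P.uu_mem he hf hef _) _ (P.uu_mem he hf hef _),
      hkh _ (P.uu_mem he hf hef _) _ (P.uu_mem he hf hef _), hP.eps, h3, ht1]
    simp only [map_sub, map_add, map_neg, map_mul, one_mul, map_one]
    ring
  have h6 := co_mul he hf hef hzz hm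
  have h7 := co_mul he' hf' hef' hzz' hm'
  have huq' : P.uu e' f' (q' * (s' * a' * s'⁻¹ * a'⁻¹)⁻¹) = 0 := by
    rw [← D.A_uu hzz hzz' (by simp only [map_mul, map_inv, hqq, hss, haa]), huq, D.A_zero]
  rw [inv_mul_cancel_right, huq, P.h_zero_left, mul_zero, sub_zero] at h6
  rw [inv_mul_cancel_right, huq', P.h_zero_left, mul_zero, sub_zero, h4, h5] at h7
  rw [h7, h6, map_add, mul_add]

end Setup1

end PolT

end Cfsg.Agent.H16.Ps
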