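import Cfsg.Agent.H16_MaxStd
import Cfsg.Agent.H16_Adj

/-! The Levi subgroup `diag(A, A⁻ᵀ)` of the hyperbolic orthogonal group. -/

set_option autoImplicit false
set_option linter.unusedSectionVars false

namespace Cfsg.Agent.H16.Quad

open Module
open QuadraticMap (polar)

variable {F : Type*} [Field F] {m : ℕ}

theorem polar_e (x : Fin m ⊕ Fin m → F) (i : Fin m) : polar (plusQ F m) x (Pi.single (Sum.inl i) 1) = x (Sum.inr i) := by
  simp [polar_plusQ, Pi.single_apply]

theorem polar_f (x : Fin m ⊕ Fin m → F) (i : Fin m) : polar (plusQ F m) x (Pi.single (Sum.inr i) 1) = x (Sum.inl i) := by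
  simp [polar_plusQ, Pi.single_apply]

/-- the Levi matrix -/
noncomputable def levM (A : Matrix (Fin m) (Fin m) F) : Matrix (Fin m ⊕ Fin m) (Fin m ⊕ Fin m) F :=
  Matrix.fromBlocks A 0 0 (A⁻¹).transpose

theorem levM_mul {A B : Matrix (Fin m) (Fin m) F} : levM (A * B) = levM A * levM B := by
  rw [levM, levM, levM, Matrix.fromBlocks_multiply]
  simp [Matrix.mul_inv_rev, Matrix.transpose_mul]

theorem lev_diag [Finite F] {δ θ : OG (plusQ F m) →* ℤˣ} (hc : Chars (plusQ F m) δ θ) (i : Fin m) {a : F} (ha : a ≠ 0) :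
    ∃ g : OG (plusQ F m), (∀ v, g.1 v = (levM (Matrix.diagonal fun j => if j = i then a else 1)).mulVec v) ∧
      δ g = 1 ∧ (θ g = 1 ↔ IsSquare a) := by
  have hyp := plusQ_hyp (F := F) m
  have hef := hyp.ef i i
  rw [if_pos rfl] at hef
  refine ⟨hyG (hyp.qe i) (hyp.qf i) hef ha, ?_, hc.hyG _ _ _ _⟩
  intro v
  show Quad.hyp (hyp.qe i) (hyp.qf i) hef ha v = _
  rw [hyp_apply, polar_e, polar_f]
  have hdet : ∀ j, (fun j => if j = i then a else 1) j ≠ 0 := by
    intro j; dsimp only; split_ifs
    · exact ha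
    · exact one_ne_zero
  have hinv : (Matrix.diagonal fun j => if j = i then a else 1)⁻¹ = Matrix.diagonal fun j => (if j = i then a⁻¹ else 1 : F) := by
    apply Matrix.inv_eq_right_inv
    rw [Matrix.diagonal_mul_diagonal, ← Matrix.diagonal_one]
    congr 1
    ext j
    split_ifs
    · exact mul_inv_cancel₀ ha
    · exact mul_one 1
  rw [levM, hinv, Matrix.fromBlocks_mulVec]
  simp only [Matrix.zero_mulVec, add_zero, zero_add]
  ext k
  rcases k with k | k
  · simp only [Sum.elim_inl, Matrix.mulVec_diagonal, Pi.add_apply, Pi.smul_apply, Pi.single_apply, Function.comp_apply,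
      smul_eq_mul]
    by_cases hk : k = i
    · subst hk; simp; ring
    · simp [hk]
  · simp only [Sum.elim_inr, Matrix.diagonal_transpose, Matrix.mulVec_diagonal, Pi.add_apply, Pi.smul_apply, Pi.single_apply, Function.comp_apply,
      smul_eq_mul]
    by_cases hk : k = i
    · subst hk; simp; ring
    · simp [hk]

theorem lev_transv [Finite F] (h : Nat.card F ≠ 2 ∨ m ≠ 2) {δ θ : OG (plusQ F m) →* ℤˣ}
    (t : Matrix.TransvectionStruct (Fin m) F) :
    ∃ g : OG (plusQ F m), (∀ v, g.1 v = (levM t.toMatrix).mulVec v) ∧ δ g = 1 ∧ θ g = 1 := by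
  have hQ := nd_plusQ (F := F) m
  have hF : Nat.card F ≠ 2 ∨ finrank F (Fin m ⊕ Fin m → F) ≠ 4 := by
    rw [finrank_plus]; omega
  have hyp := plusQ_hyp (F := F) m
  obtain ⟨i, j, hij, c⟩ := t
  have hu : plusQ F m (Pi.single (Sum.inr j) 1) = 0 := hyp.qf j
  have hy : polar (plusQ F m) (Pi.single (Sum.inr j) 1) (c • (Pi.single (Sum.inl i) 1 : Fin m ⊕ Fin m → F)) = 0 := by
    rw [polar_smul_right, hyp.fe, if_neg hij.symm, mul_zero]
  have hmem := siegel_mem_comm' hQ hF hu hy
  refine ⟨⟨siegel hu hy, siegel_mem hu hy⟩, ?_, hom_comm δ hmem, hom_comm θ hmem⟩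
  intro v
  show siegel hu hy v = _
  rw [siegel_apply, polar_smul_right, polar_e, polar_f, map_smul, hyp.qe]
  have hinv : (Matrix.TransvectionStruct.toMatrix ⟨i, j, hij, c⟩)⁻¹ = Matrix.transvection i j (-c) := by
    apply Matrix.inv_eq_right_inv
    rw [Matrix.TransvectionStruct.toMatrix_mk, Matrix.transvection_mul_transvection_same i j hij, add_neg_cancel, Matrix.transvection_zero]
  rw [levM, hinv, Matrix.fromBlocks_mulVec]
  simp only [Matrix.zero_mulVec, add_zero, zero_add]
  ext k
  rcases k with k | k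
  · simp only [Sum.elim_inl, Matrix.TransvectionStruct.toMatrix_mk, Matrix.transvection, Matrix.add_mulVec, Matrix.one_mulVec,
      Pi.add_apply, Pi.sub_apply, Pi.smul_apply, Function.comp_apply, smul_eq_mul, Matrix.single_mulVec]
    by_cases hk : k = i
    · subst hk; simp [Pi.single_apply]; ring
    · simp [Pi.single_apply, hk, Function.update_apply]
  · simp only [Sum.elim_inr, Matrix.transvection, Matrix.transpose_add, Matrix.transpose_one, Matrix.transpose_single,
      Matrix.add_mulVec, Matrix.one_mulVec,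
      Pi.add_apply, Pi.sub_apply, Pi.smul_apply, Function.comp_apply, smul_eq_mul, Matrix.single_mulVec]
    by_cases hk : k = j
    · subst hk; simp [Pi.single_apply]; ring
    · simp [Pi.single_apply, hk, Function.update_apply]

/-- Elements of the Levi subgroup: parity one and spinor norm the class of the determinant. -/
theorem lev_char [Finite F] (h : Nat.card F ≠ 2 ∨ m ≠ 2) {δ θ : OG (plusQ F m) →* ℤˣ} (hc : Chars (plusQ F m) δ θ)
    (A : Matrix (Fin m) (Fin m) F) (hA : A.det ≠ 0) :
    ∃ g : OG (plusQ F m), (∀ v, g.1 v = (levM A).mulVec v) ∧ δ g = 1 ∧ (θ g = 1 ↔ IsSquare A.det) := by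
  let P : Matrix (Fin m) (Fin m) F → Prop := fun A =>
    ∃ g : OG (plusQ F m), (∀ v, g.1 v = (levM A).mulVec v) ∧ δ g = 1 ∧ (θ g = 1 ↔ IsSquare A.det)
  have hmul : ∀ A B : Matrix (Fin m) (Fin m) F, A.det ≠ 0 → B.det ≠ 0 → P A → P B → P (A * B) := by
    rintro A B hA hB ⟨g, hg, hg1, hg2⟩ ⟨k, hk, hk1, hk2⟩
    refine ⟨g * k, ?_, by rw [_root_.map_mul, hg1, hk1, one_mul], ?_⟩
    · intro v
      show g.1 (k.1 v) = _
      rw [hk, hg, levM_mul, Matrix.mulVec_mulVec]
    · rw [_root_.map_mul, Matrix.det_mul, isSquare_mul_iff hA hB, ← hg2, ← hk2]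
      rcases Int.units_eq_one_or (θ g) with h1 | h1 <;>
        rcases Int.units_eq_one_or (θ k) with h2 | h2 <;> rw [h1, h2] <;> decide
  have h1 : P 1 := ⟨1, fun v => by simp [levM], by simp, by simp⟩
  refine Matrix.diagonal_transvection_induction_of_det_ne_zero P A hA ?_ ?_ hmul
  · intro D hD
    rw [Matrix.det_diagonal, Finset.prod_ne_zero_iff] at hD
    have key : ∀ s : Finset (Fin m), P (Matrix.diagonal fun j => if j ∈ s then D j else 1) := by
      intro s
      induction s using Finset.induction_on with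
      | empty => simpa using h1
      | insert i s hi ih =>
        have h2 : (Matrix.diagonal fun j => if j ∈ insert i s then D j else 1) =
            (Matrix.diagonal fun j => if j = i then D i else 1) * Matrix.diagonal fun j => if j ∈ s then D j else 1 := by
          rw [Matrix.diagonal_mul_diagonal]
          congr 1
          ext j
          by_cases hj : j = i
          · subst hj; simp [hi]
          · simp [hj]
        rw [h2]
        have hdi : D i ≠ 0 := hD i (Finset.mem_univ i)
        apply hmul _ _ ?_ ?_ ?_ ih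
        · rw [Matrix.det_diagonal]; simpa using hdi
        · rw [Matrix.det_diagonal, Finset.prod_ne_zero_iff]
          intro j _
          split_ifs
          · exact hD j (Finset.mem_univ j)
          · exact one_ne_zero
        · obtain ⟨g, hg, hg1, hg2⟩ := lev_diag hc i hdi
          refine ⟨g, hg, hg1, ?_⟩
          rw [hg2, Matrix.det_diagonal]
          simp
    have := key Finset.univ
    simpa using this
  · intro t
    obtain ⟨g, hg, hg1, hg2⟩ := lev_transv h (δ := δ) (θ := θ) t
    refine ⟨g, hg, hg1, ?_⟩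
    rw [hg2, Matrix.TransvectionStruct.det]
    simp

end Cfsg.Agent.H16.Quad
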