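import Mathlib

/-! Normal rank of Sylow 2-subgroups of general linear groups: numerics. -/

set_option autoImplicit false
set_option linter.style.haveILetI false

namespace Cfsg.Agent.H16.NR

local notation "v2" => padicValNat 2

theorem v2_mul {a b : ℕ} (ha : a ≠ 0) (hb : b ≠ 0) : v2 (a * b) = v2 a + v2 b := by
  haveI : Fact (Nat.Prime 2) := ⟨Nat.prime_two⟩
  exact padicValNat.mul ha hb

theorem v2_odd {a : ℕ} (ha : a % 2 = 1) : v2 a = 0 := padicValNat.eq_zero_of_not_dvd (by omega)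

theorem v2_two_mul {a : ℕ} (ha : a ≠ 0) : v2 (2 * a) = v2 a + 1 := by
  haveI : Fact (Nat.Prime 2) := ⟨Nat.prime_two⟩
  rw [v2_mul (by norm_num) ha, padicValNat.self (by norm_num), add_comm]

theorem v2_pow_odd {q : ℕ} (hq : q % 2 = 1) {n : ℕ} (hn : n % 2 = 1) : v2 (q ^ n - 1) = v2 (q - 1) := by
  rcases Nat.eq_or_lt_of_le (show 1 ≤ q by omega) with rfl | h1
  · rw [one_pow]
  have h2 : (∑ i ∈ Finset.range n, q ^ i) * (q - 1) + 1 = q ^ n := by
    have h3 := geom_sum_mul_add (q - 1) n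
    rw [Nat.sub_add_cancel h1.le] at h3
    exact h3
  have h4 : ∀ m, (∑ i ∈ Finset.range m, q ^ i) % 2 = m % 2 := by
    intro m
    induction m with
    | zero => rfl
    | succ m ih =>
      rw [Finset.sum_range_succ, Nat.add_mod, ih, Nat.pow_mod, hq, one_pow]
      omega
  have h5 := h4 n
  rw [hn] at h5
  have h6 : q ^ n - 1 = (∑ i ∈ Finset.range n, q ^ i) * (q - 1) := by omega
  rw [h6, v2_mul (fun h => by rw [h] at h5; omega) (by omega), v2_odd h5, zero_add]

theorem v2_pow_even {q : ℕ} (hq : q % 2 = 1) (hq1 : 1 < q) (i : ℕ) : v2 (q ^ (2 * (i + 1)) - 1) = v2 (q - 1) + v2 (q + 1) + v2 (i + 1) := by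
  have h := padicValNat.pow_two_sub_pow (x := q) (y := 1) hq1 (by omega) (by omega) (n := 2 * (i + 1)) (by omega) (even_two_mul _)
  rw [one_pow, v2_two_mul (by omega)] at h
  omega

theorem v2_fact (k : ℕ) : v2 k.factorial = k / 2 + v2 (k / 2).factorial := by
  induction k with
  | zero => simp
  | succ k ih =>
    rw [Nat.factorial_succ, v2_mul (by omega) (Nat.factorial_ne_zero k), ih]
    rcases Nat.even_or_odd' k with ⟨m, rfl | rfl⟩
    · rw [v2_odd (by omega), show (2 * m + 1) / 2 = m by omega, show 2 * m / 2 = m by omega, zero_add]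
    · rw [show 2 * m + 1 + 1 = 2 * (m + 1) by ring, v2_two_mul (by omega), show (2 * m + 1) / 2 = m by omega, show 2 * (m + 1) / 2 = m + 1 by omega,
        Nat.factorial_succ, v2_mul (by omega) (Nat.factorial_ne_zero m)]
      ring

/-- the 2-adic valuation of the order of `GL n` -/
def GG (q n : ℕ) : ℕ := ∑ i ∈ Finset.range n, v2 (q ^ (i + 1) - 1)

theorem GG_succ (q n : ℕ) : GG q (n + 1) = GG q n + v2 (q ^ (n + 1) - 1) := Finset.sum_range_succ _ _

theorem GG_card {F : Type*} [Field F] [Fintype F] (hq : Fintype.card F % 2 = 1) (n : ℕ) :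
    v2 (Nat.card (Matrix.GeneralLinearGroup (Fin n) F)) = GG (Fintype.card F) n := by
  set q := Fintype.card F with hqq
  have hq1 : 1 < q := Fintype.one_lt_card
  have h0 : Nat.card (Matrix.GeneralLinearGroup (Fin n) F) = ∏ i ∈ Finset.range n, (q ^ n - q ^ i) := by
    rw [← Fin.prod_univ_eq_prod_range (fun i => q ^ n - q ^ i) n]
    exact Matrix.card_GL_field n
  have h1 : ∀ i ∈ Finset.range n, q ^ n - q ^ i ≠ 0 := by
    intro i hi
    rw [Finset.mem_range] at hi
    have := Nat.pow_lt_pow_right hq1 hi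
    omega
  rw [h0, ← Nat.factorization_def _ Nat.prime_two, Nat.factorization_prod_apply h1, GG, ← Finset.sum_range_reflect]
  refine Finset.sum_congr rfl fun i hi => ?_
  rw [Finset.mem_range] at hi
  have h2 : q ^ n - q ^ (n - 1 - i) = q ^ (n - 1 - i) * (q ^ (i + 1) - 1) := by
    rw [Nat.mul_sub, mul_one, ← pow_add]
    congr 2
    omega
  have h3 : q ^ (i + 1) - 1 ≠ 0 := by
    have := Nat.one_lt_pow (show i + 1 ≠ 0 by omega) hq1
    omega
  rw [Nat.factorization_def _ Nat.prime_two, h2, v2_mul (pow_ne_zero _ (by omega)) h3, v2_odd (Nat.odd_iff.1 ((Nat.odd_iff.2 hq).pow)), zero_add]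

theorem GG_one {q : ℕ} (hq : q % 4 = 1) (hq1 : 1 < q) (n : ℕ) : GG q n = n * v2 (q - 1) + v2 n.factorial := by
  have hb : v2 (q + 1) = 1 := by
    obtain ⟨m, hm⟩ : ∃ m, q + 1 = 2 * m := ⟨(q + 1) / 2, by omega⟩
    rw [hm, v2_two_mul (by omega), v2_odd (by omega)]
  induction n with
  | zero => simp [GG]
  | succ n ih =>
    rw [GG_succ, ih, Nat.factorial_succ, v2_mul (by omega) (Nat.factorial_ne_zero n)]
    rcases Nat.even_or_odd' n with ⟨m, rfl | rfl⟩
    · rw [v2_pow_odd (by omega) (by omega), v2_odd (a := 2 * m + 1) (by omega)]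
      ring
    · rw [show 2 * m + 1 + 1 = 2 * (m + 1) by ring, v2_pow_even (by omega) hq1, v2_two_mul (by omega), hb]
      ring

theorem c_eq {q : ℕ} (hq : q % 4 = 3) : v2 (q - 1) = 1 := by
  obtain ⟨m, hm⟩ : ∃ m, q - 1 = 2 * m := ⟨(q - 1) / 2, by omega⟩
  rw [hm, v2_two_mul (by omega), v2_odd (by omega)]

theorem GG_three {q : ℕ} (hq : q % 4 = 3) (n : ℕ) : GG q n = n + n / 2 * v2 (q + 1) + v2 (n / 2).factorial := by
  induction n with
  | zero => simp [GG]
  | succ n ih =>
    rw [GG_succ, ih]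
    rcases Nat.even_or_odd' n with ⟨m, rfl | rfl⟩
    · rw [v2_pow_odd (by omega) (by omega), c_eq hq, show (2 * m + 1) / 2 = m by omega, show 2 * m / 2 = m by omega]
      ring
    · rw [show 2 * m + 1 + 1 = 2 * (m + 1) by ring, v2_pow_even (by omega) (by omega), c_eq hq, show (2 * m + 1) / 2 = m by omega,
        show 2 * (m + 1) / 2 = m + 1 by omega, Nat.factorial_succ, v2_mul (by omega) (Nat.factorial_ne_zero m)]
      ring

theorem GG_lt {q : ℕ} (hq : q % 4 = 3) {k l : ℕ} (hk : 2 ≤ k) : GG q l + v2 k.factorial + k < GG q (l + k) := by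
  haveI : Fact (Nat.Prime 2) := ⟨Nat.prime_two⟩
  rw [GG_three hq, GG_three hq, v2_fact k]
  have hb : 2 ≤ v2 (q + 1) := by
    rw [← padicValNat_dvd_iff_le (by omega)]
    omega
  have h1 : v2 (l / 2).factorial + v2 (k / 2).factorial ≤ v2 ((l + k) / 2).factorial := by
    rw [← v2_mul (Nat.factorial_ne_zero _) (Nat.factorial_ne_zero _)]
    rw [← padicValNat_dvd_iff_le (Nat.factorial_ne_zero _)]
    refine pow_padicValNat_dvd.trans ?_
    exact (Nat.factorial_mul_factorial_dvd_factorial_add _ _).trans (Nat.factorial_dvd_factorial (by omega))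
  obtain ⟨d, hd⟩ : ∃ d, (l + k) / 2 = l / 2 + k / 2 + d := ⟨(l + k) / 2 - (l / 2 + k / 2), by omega⟩
  rw [hd] at h1 ⊢
  have h2 : (l / 2 + k / 2 + d) * v2 (q + 1) = l / 2 * v2 (q + 1) + k / 2 * v2 (q + 1) + d * v2 (q + 1) := by ring
  have h3 : k / 2 * 2 ≤ k / 2 * v2 (q + 1) := Nat.mul_le_mul_left _ hb
  have h4 : 1 ≤ k / 2 := by omega
  rw [h2]
  omega

end Cfsg.Agent.H16.NR
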