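import Mathlib

set_option autoImplicit false

/-! Norm forms over finite commutative rings. -/

namespace Cfsg.Agent.H16.Nrm

open Polynomial

theorem univ_field {E : Type*} [Field E] [Finite E] {T N : E} (hd : T ^ 2 - 4 * N ≠ 0) (s : E) :
    ∃ x y : E, x ^ 2 + T * x * y + N * y ^ 2 = s := by
  classical
  have hE : Fintype E := Fintype.ofFinite E
  by_cases h2 : (2 : E) = 0
  · have hc : ringChar E = 2 := by
      apply CharP.ringChar_of_prime_eq_zero Nat.prime_two
      exact_mod_cast h2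
    obtain ⟨x, hx⟩ := FiniteField.isSquare_of_char_two hc s
    exact ⟨x, 0, by rw [hx]; ring⟩
  · have hodd : Fintype.card E % 2 = 1 := by
      apply FiniteField.odd_card_of_char_ne_two
      intro h
      apply h2
      have := ringChar.Nat.cast_ringChar (R := E)
      rw [h] at this
      exact_mod_cast this
    obtain ⟨a, b, hab⟩ := FiniteField.exists_root_sum_quadratic (f := (X ^ 2 - C (4 * s) : E[X]))
      (g := C (-(T ^ 2 - 4 * N)) * X ^ 2) (degree_X_pow_sub_C (by norm_num) _)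
      (degree_C_mul_X_pow 2 (neg_ne_zero.mpr hd)) hodd
    simp only [eval_sub, eval_pow, eval_X, eval_C, eval_mul] at hab
    refine ⟨(a - T * b) / 2, b, ?_⟩
    field_simp
    linear_combination hab

theorem crt {R : Type*} [CommRing R] [Finite R] (x : MaximalSpectrum R → R) :
    ∃ r : R, ∀ m : MaximalSpectrum R, r - x m ∈ m.asIdeal :=
  Ideal.exists_forall_sub_mem_ideal (I := fun m : MaximalSpectrum R => m.asIdeal) (fun i j hij => by
    apply Ideal.isCoprime_of_isMaximal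
    intro h
    exact hij (MaximalSpectrum.ext h)) x

theorem nil_iff {R : Type*} [CommRing R] [Finite R] {x : R} :
    IsNilpotent x ↔ ∀ m : MaximalSpectrum R, x ∈ m.asIdeal := by
  rw [← mem_nilradical, IsArtinianRing.nilradical_eq_iInf, Ideal.mem_iInf]

theorem unit_iff {R : Type*} [CommRing R] {x : R} :
    IsUnit x ↔ ∀ m : MaximalSpectrum R, x ∉ m.asIdeal := by
  constructor
  · intro h m hm
    exact m.isMaximal.ne_top (Ideal.eq_top_of_isUnit_mem _ hm h)
  · intro h
    by_contra hx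
    obtain ⟨m, hm, hxm⟩ := exists_max_ideal_of_mem_nonunits hx
    exact h ⟨m, hm⟩ hxm

/-- solving `z + c z ^ 2 = j` for nilpotent `j`. -/
theorem nil_solve {R : Type*} [CommRing R] [Finite R] (c j : R) (hj : IsNilpotent j) :
    ∃ z : R, z + c * z ^ 2 = j := by
  let f : nilradical R → nilradical R := fun z => ⟨(z : R) + c * (z : R) ^ 2,
    add_mem z.2 (Ideal.mul_mem_left _ _ (by rw [pow_two]; exact Ideal.mul_mem_left _ _ z.2))⟩
  have hf : Function.Injective f := by
    intro z w h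
    have h1 : (z : R) + c * (z : R) ^ 2 = (w : R) + c * (w : R) ^ 2 := congrArg Subtype.val h
    have h2 : ((z : R) - w) * (1 + c * (z + w)) = 0 := by linear_combination h1
    have h3 : IsNilpotent (c * ((z : R) + w)) := by
      rw [← mem_nilradical]
      exact Ideal.mul_mem_left _ _ (add_mem z.2 w.2)
    have h4 : IsUnit (1 + c * ((z : R) + w)) := h3.isUnit_one_add
    exact Subtype.ext (sub_eq_zero.mp ((h4.mul_left_eq_zero).mp h2))
  obtain ⟨z, hz⟩ := Finite.surjective_of_injective hf ⟨j, mem_nilradical.mpr hj⟩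
  exact ⟨z, congrArg Subtype.val hz⟩

/-- the norm is onto the units of a finite commutative ring. -/
theorem univ_ring {R : Type*} [CommRing R] [Finite R] {T N : R} (hd : IsUnit (T ^ 2 - 4 * N)) (s : R) (hs : IsUnit s) :
    ∃ x y : R, x ^ 2 + T * x * y + N * y ^ 2 = s := by
  classical
  -- modulo the maximal ideals
  have h1 : ∀ m : MaximalSpectrum R, ∃ x y : R, x ^ 2 + T * x * y + N * y ^ 2 - s ∈ m.asIdeal := by
    intro m
    let _ := Ideal.Quotient.field m.asIdeal
    have hfin : Finite (R ⧸ m.asIdeal) := Finite.of_surjective _ Ideal.Quotient.mk_surjective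
    have hne : (Ideal.Quotient.mk m.asIdeal T) ^ 2 - 4 * Ideal.Quotient.mk m.asIdeal N ≠ 0 := by
      have h2 := (hd.map (Ideal.Quotient.mk m.asIdeal)).ne_zero
      rwa [_root_.map_sub, _root_.map_mul, _root_.map_pow, map_ofNat] at h2
    obtain ⟨x, y, hxy⟩ := univ_field hne (Ideal.Quotient.mk m.asIdeal s)
    obtain ⟨x, rfl⟩ := Ideal.Quotient.mk_surjective x
    obtain ⟨y, rfl⟩ := Ideal.Quotient.mk_surjective y
    refine ⟨x, y, ?_⟩
    rw [← Ideal.Quotient.eq_zero_iff_mem, _root_.map_sub, _root_.map_add, _root_.map_add, _root_.map_mul, _root_.map_mul,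
      _root_.map_mul, _root_.map_pow, _root_.map_pow, hxy, sub_self]
  choose x y hxy using h1
  obtain ⟨X, hX⟩ := crt x
  obtain ⟨Y, hY⟩ := crt y
  have h2 : IsNilpotent (X ^ 2 + T * X * Y + N * Y ^ 2 - s) := by
    rw [nil_iff]
    intro m
    have e1 : X ^ 2 + T * X * Y + N * Y ^ 2 - s = (X + x m + T * Y) * (X - x m) + (T * x m + N * (Y + y m)) * (Y - y m) +
        (x m ^ 2 + T * x m * y m + N * y m ^ 2 - s) := by ring
    rw [e1]
    exact add_mem (add_mem (Ideal.mul_mem_left _ _ (hX m)) (Ideal.mul_mem_left _ _ (hY m))) (hxy m)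
  obtain ⟨u, hu⟩ := hs
  -- `N(X + Y ω) = s (1 + j)`
  obtain ⟨j, hj⟩ : ∃ j, j = (↑u⁻¹ : R) * (X ^ 2 + T * X * Y + N * Y ^ 2 - s) := ⟨_, rfl⟩
  have hjn : IsNilpotent j := by
    rw [← mem_nilradical, hj]
    exact Ideal.mul_mem_left _ _ (mem_nilradical.mpr h2)
  have hj1 : X ^ 2 + T * X * Y + N * Y ^ 2 = s * (1 + j) := by
    rw [hj, ← hu]
    have := u.mul_inv
    linear_combination (X ^ 2 + T * X * Y + N * Y ^ 2 - (u : R)) * (-this)
  obtain ⟨v, hv⟩ := hjn.isUnit_one_add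
  -- `(1 + j)⁻¹ = 1 + j'`
  obtain ⟨j', hj'⟩ : ∃ j', j' = (↑v⁻¹ : R) * (-j) := ⟨_, rfl⟩
  have hj'n : IsNilpotent j' := by
    rw [← mem_nilradical, hj']
    exact Ideal.mul_mem_left _ _ (neg_mem (mem_nilradical.mpr hjn))
  have hj'1 : (1 + j) * (1 + j') = 1 := by
    rw [hj', ← hv]
    have h3 := v.mul_inv
    linear_combination (-j) * h3 + hv
  obtain ⟨d, hd'⟩ := hd
  have hdd := d.mul_inv
  rw [hd'] at hdd
  obtain ⟨t0, ht0⟩ : ∃ t0, t0 = -2 * N * (↑d⁻¹ : R) := ⟨_, rfl⟩
  obtain ⟨t1, ht1⟩ : ∃ t1, t1 = T * (↑d⁻¹ : R) := ⟨_, rfl⟩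
  have htr : 2 * t0 + T * t1 = 1 := by
    rw [ht0, ht1]
    linear_combination hdd
  obtain ⟨z, hz⟩ := nil_solve (t0 ^ 2 + T * t0 * t1 + N * t1 ^ 2) j' hj'n
  have h4 : (1 + t0 * z) ^ 2 + T * (1 + t0 * z) * (t1 * z) + N * (t1 * z) ^ 2 = 1 + j' := by
    linear_combination hz + z * htr
  refine ⟨X * (1 + t0 * z) - N * Y * (t1 * z), X * (t1 * z) + Y * (1 + t0 * z) + T * Y * (t1 * z), ?_⟩
  have h5 : (X * (1 + t0 * z) - N * Y * (t1 * z)) ^ 2 + T * (X * (1 + t0 * z) - N * Y * (t1 * z)) *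
      (X * (t1 * z) + Y * (1 + t0 * z) + T * Y * (t1 * z)) + N * (X * (t1 * z) + Y * (1 + t0 * z) + T * Y * (t1 * z)) ^ 2 =
      (X ^ 2 + T * X * Y + N * Y ^ 2) * ((1 + t0 * z) ^ 2 + T * (1 + t0 * z) * (t1 * z) + N * (t1 * z) ^ 2) := by ring
  rw [h5, h4, hj1, mul_assoc, hj'1, mul_one]

/-- Hilbert 90 for an involution of a finite commutative ring. -/
theorem hilbert {R : Type*} [CommRing R] [Finite R] (α : R ≃+* R) (hα : ∀ x, α (α x) = x) {ω : R} (hω : IsUnit (α ω - ω))
    {z : R} (hz : z * α z = 1) : ∃ a : R, IsUnit (a + α a * z) := by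
  classical
  obtain ⟨f⟩ : Nonempty (MaximalSpectrum R ↪ ℕ) := ⟨(Finite.equivFin (MaximalSpectrum R)).toEmbedding.trans Fin.valEmbedding⟩
  let τ : MaximalSpectrum R → MaximalSpectrum R := fun m => ⟨m.asIdeal.comap (α : R →+* R),
    Ideal.comap_isMaximal_of_surjective _ α.surjective⟩
  have hτ : ∀ m x, x ∈ (τ m).asIdeal ↔ α x ∈ m.asIdeal := fun m x => Iff.rfl
  have hττ : ∀ m, τ (τ m) = m := by
    intro m
    apply MaximalSpectrum.ext
    ext x
    rw [hτ, hτ, hα]
  have hzu : IsUnit z := IsUnit.of_mul_eq_one _ hz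
  have hz' : ∀ m : MaximalSpectrum R, z ∉ m.asIdeal := unit_iff.mp hzu
  have h1 : ∀ m : MaximalSpectrum R, ∃ a : R, (τ m = m → a + α a * z ∉ m.asIdeal) ∧ (f m < f (τ m) → a = 1) ∧
      (f (τ m) < f m → a = 0) := by
    intro m
    by_cases hm : τ m = m
    · by_cases h2 : (1 : R) + α 1 * z ∈ m.asIdeal
      · refine ⟨ω, fun _ h3 => ?_, fun h => (by rw [hm] at h; omega), fun h => (by rw [hm] at h; omega)⟩
        rw [_root_.map_one] at h2
        have h4 : α ω - ω ∈ m.asIdeal := by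
          have h5 := sub_mem (Ideal.mul_mem_left _ (α ω) h2) h3
          have h6 : α ω * (1 + 1 * z) - (ω + α ω * z) = α ω - ω := by ring
          rwa [h6] at h5
        exact unit_iff.mp hω m h4
      · exact ⟨1, fun _ => h2, fun h => rfl, fun h => (by rw [hm] at h; omega)⟩
    · rcases lt_trichotomy (f m) (f (τ m)) with h | h | h
      · exact ⟨1, fun h' => absurd h' hm, fun _ => rfl, fun h' => absurd h' (by omega)⟩
      · exact absurd (f.injective h).symm hm
      · exact ⟨0, fun h' => absurd h' hm, fun h' => absurd h' (by omega), fun _ => rfl⟩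
  choose a ha using h1
  obtain ⟨A, hA⟩ := crt a
  refine ⟨A, unit_iff.mpr fun m hm => ?_⟩
  -- `A ≡ a m`, `α A ≡ α (a (τ m))`
  have h2 : α A - α (a (τ m)) ∈ m.asIdeal := by
    rw [← _root_.map_sub, ← hτ]
    exact hA (τ m)
  have h3 : a m + α (a (τ m)) * z ∈ m.asIdeal := by
    have h4 := sub_mem (sub_mem hm (hA m)) (Ideal.mul_mem_right z _ h2)
    have h5 : A + α A * z - (A - a m) - (α A - α (a (τ m))) * z = a m + α (a (τ m)) * z := by ring
    rwa [h5] at h4
  by_cases hmm : τ m = m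
  · rw [hmm] at h3
    exact (ha m).1 hmm h3
  · rcases lt_trichotomy (f m) (f (τ m)) with h | h | h
    · rw [(ha m).2.1 h, (ha (τ m)).2.2 (by rw [hττ]; exact h), _root_.map_zero, zero_mul, add_zero] at h3
      exact m.isMaximal.ne_top ((Ideal.eq_top_iff_one _).mpr h3)
    · exact hmm (f.injective h).symm
    · rw [(ha m).2.2 h, (ha (τ m)).2.1 (by rw [hττ]; exact h), _root_.map_one, zero_add, one_mul] at h3
      exact hz' m h3

end Cfsg.Agent.H16.Nrm
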