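import Cfsg.Agent.H5_QuadC

/-! Sylow 2-subgroups of the full orthogonal groups of plus type over the field with two elements. -/

set_option autoImplicit false

namespace Cfsg.Agent.H16.OSy

open Module Cfsg.Agent.H5.QuadC
open scoped Pointwise Matrix

theorem key {G : Type*} [Group G] [Finite G] {p : ℕ} [Fact p.Prime] (C0 : Subgroup G) (hC : IsPGroup p C0)
    (h : ∀ x y : G, ∃ t : G, t ≠ 1 ∧ x⁻¹ * t * x ∈ C0 ∧ y⁻¹ * t * y ∈ C0) (H : Sylow p G) (x : G) :
    (H : Subgroup G) ⊓ MulAut.conj x • (H : Subgroup G) ≠ ⊥ := by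
  obtain ⟨P, hP⟩ := hC.exists_le_sylow
  obtain ⟨y, rfl⟩ := MulAction.exists_smul_eq G P H
  obtain ⟨t, ht1, ht2, ht3⟩ := h y (x * y)
  intro h0
  apply ht1
  rw [← Subgroup.mem_bot, ← h0, Subgroup.mem_inf, Sylow.coe_subgroup_smul]
  refine ⟨?_, ?_⟩
  · rw [Subgroup.mem_pointwise_smul_iff_inv_smul_mem]
    refine hP ?_
    convert ht2 using 1
    simp [MulAut.smul_def]
  · rw [Subgroup.mem_pointwise_smul_iff_inv_smul_mem, Subgroup.mem_pointwise_smul_iff_inv_smul_mem]
    refine hP ?_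
    convert ht3 using 1
    simp [MulAut.smul_def, mul_assoc]

variable {F : Type*} [Field F] {m : ℕ}

/-- pointwise stabilizers -/
def Cu (F : Type*) [Field F] (m : ℕ) (U : Set (Fin m ⊕ Fin m → F)) : Subgroup (Cfsg.isometryGroup F (Cfsg.quadFormPlus m F)) where
  carrier := {g | ∀ u ∈ U, ((g : Matrix.GeneralLinearGroup (Fin m ⊕ Fin m) F) : Matrix (Fin m ⊕ Fin m) (Fin m ⊕ Fin m) F) *ᵥ u = u}
  mul_mem' {a b} ha hb := by
    intro u hu
    have h : (((a * b : Cfsg.isometryGroup F (Cfsg.quadFormPlus m F)) : Matrix.GeneralLinearGroup (Fin m ⊕ Fin m) F) :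
      Matrix (Fin m ⊕ Fin m) (Fin m ⊕ Fin m) F) = ((a : Matrix.GeneralLinearGroup (Fin m ⊕ Fin m) F) : Matrix (Fin m ⊕ Fin m) (Fin m ⊕ Fin m) F) *
      ((b : Matrix.GeneralLinearGroup (Fin m ⊕ Fin m) F) : Matrix (Fin m ⊕ Fin m) (Fin m ⊕ Fin m) F) := rfl
    rw [h, ← Matrix.mulVec_mulVec, hb u hu, ha u hu]
  one_mem' := by
    intro u _
    exact Matrix.one_mulVec u
  inv_mem' {a} ha := by
    intro u hu
    have h : (((a⁻¹ : Cfsg.isometryGroup F (Cfsg.quadFormPlus m F)) : Matrix.GeneralLinearGroup (Fin m ⊕ Fin m) F) :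
      Matrix (Fin m ⊕ Fin m) (Fin m ⊕ Fin m) F) * ((a : Matrix.GeneralLinearGroup (Fin m ⊕ Fin m) F) : Matrix (Fin m ⊕ Fin m) (Fin m ⊕ Fin m) F) = 1 := by
      have := congrArg (fun z : Cfsg.isometryGroup F (Cfsg.quadFormPlus m F) => ((z : Matrix.GeneralLinearGroup (Fin m ⊕ Fin m) F) :
        Matrix (Fin m ⊕ Fin m) (Fin m ⊕ Fin m) F)) (inv_mul_cancel a)
      exact this
    conv_lhs => rw [← ha u hu]
    rw [Matrix.mulVec_mulVec, h, Matrix.one_mulVec]

theorem q_pres (g : Cfsg.isometryGroup F (Cfsg.quadFormPlus m F)) (v : Fin m ⊕ Fin m → F) :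
    Cfsg.quadFormPlus m F (((g : Matrix.GeneralLinearGroup (Fin m ⊕ Fin m) F) : Matrix (Fin m ⊕ Fin m) (Fin m ⊕ Fin m) F) *ᵥ v) =
      Cfsg.quadFormPlus m F v := g.2 v v

theorem polar_pres (g : Cfsg.isometryGroup F (Cfsg.quadFormPlus m F)) (u v : Fin m ⊕ Fin m → F) :
    QuadraticMap.polar (qPlus m F) (((g : Matrix.GeneralLinearGroup (Fin m ⊕ Fin m) F) : Matrix (Fin m ⊕ Fin m) (Fin m ⊕ Fin m) F) *ᵥ u)
      (((g : Matrix.GeneralLinearGroup (Fin m ⊕ Fin m) F) : Matrix (Fin m ⊕ Fin m) (Fin m ⊕ Fin m) F) *ᵥ v) =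
      QuadraticMap.polar (qPlus m F) u v := by
  rw [QuadraticMap.polar, QuadraticMap.polar, ← Matrix.mulVec_add]
  simp only [qPlus_apply, q_pres]

theorem polar_inl (u : Fin m ⊕ Fin m → F) (i : Fin m) :
    QuadraticMap.polar (qPlus m F) u (Pi.single (Sum.inl i) 1) = u (.inr i) := by
  rw [qPlus_polar, Finset.sum_eq_single i]
  · simp
  · intro j _ hj
    simp [Pi.single_apply, hj]
  · simp

theorem polar_inr (u : Fin m ⊕ Fin m → F) (i : Fin m) :
    QuadraticMap.polar (qPlus m F) u (Pi.single (Sum.inr i) 1) = u (.inl i) := by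
  rw [qPlus_polar, Finset.sum_eq_single i]
  · simp
  · intro j _ hj
    simp [Pi.single_apply, hj]
  · simp

theorem exists_polar {x : Fin m ⊕ Fin m → F} (hx : x ≠ 0) : ∃ z, QuadraticMap.polar (qPlus m F) z x ≠ 0 := by
  by_contra h
  push Not at h
  apply hx
  funext i
  rcases i with i | i
  · rw [← polar_inr x i, QuadraticMap.polar_comm, h]; rfl
  · rw [← polar_inl x i, QuadraticMap.polar_comm, h]; rfl

/-- an isometric involution as a group element -/
theorem exists_elt (T : (Fin m ⊕ Fin m → F) →ₗ[F] (Fin m ⊕ Fin m → F)) (hT : T * T = 1)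
    (hq : ∀ v, qPlus m F (T v) = qPlus m F v) :
    ∃ t : Cfsg.isometryGroup F (Cfsg.quadFormPlus m F), ∀ v,
      ((t : Matrix.GeneralLinearGroup (Fin m ⊕ Fin m) F) : Matrix (Fin m ⊕ Fin m) (Fin m ⊕ Fin m) F) *ᵥ v = T v := by
  have h1 : LinearMap.toMatrix' T * LinearMap.toMatrix' T = 1 := by
    rw [← LinearMap.toMatrix'_mul, hT, LinearMap.toMatrix'_one]
  refine ⟨⟨⟨LinearMap.toMatrix' T, LinearMap.toMatrix' T, h1, h1⟩, ?_⟩, ?_⟩
  · intro u v
    change Cfsg.quadFormPlus m F (LinearMap.toMatrix' T *ᵥ u) = Cfsg.quadFormPlus m F u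
    rw [← qPlus_apply, ← qPlus_apply, LinearMap.toMatrix'_mulVec, hq]
  · intro v
    exact LinearMap.toMatrix'_mulVec T v

theorem exists_t [Fintype F] (hF : Fintype.card F = 2) (W : Submodule F (Fin m ⊕ Fin m → F)) (hW : finrank F W + 2 ≤ 2 * m) :
    ∃ t : Cfsg.isometryGroup F (Cfsg.quadFormPlus m F), t ≠ 1 ∧ ∀ w ∈ W,
      ((t : Matrix.GeneralLinearGroup (Fin m ⊕ Fin m) F) : Matrix (Fin m ⊕ Fin m) (Fin m ⊕ Fin m) F) *ᵥ w = w := by
  have : CharP F 2 := by
    have : Fact (Nat.Prime 2) := ⟨Nat.prime_two⟩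
    exact charP_of_card_eq_prime_pow (f := 1) (by rw [hF, pow_one])
  have h2 : (2 : F) = 0 := CharTwo.two_eq_zero
  have F01 : ∀ a : F, a = 0 ∨ a = 1 := by
    intro a
    by_cases ha : a = 0
    · exact Or.inl ha
    · right
      have := FiniteField.pow_card_sub_one_eq_one a ha
      rwa [hF, pow_one] at this
  set B := (qPlus m F).polarBilin with hB
  -- the orthogonal space
  let L : (Fin m ⊕ Fin m → F) →ₗ[F] (W →ₗ[F] F) :=
    (LinearMap.lcomp F F W.subtype).comp B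
  have hL : ∀ x, x ∈ LinearMap.ker L → ∀ w ∈ W, QuadraticMap.polar (qPlus m F) x w = 0 := by
    intro x hx w hw
    have := congrArg (fun z : W →ₗ[F] F => z ⟨w, hw⟩) (LinearMap.mem_ker.1 hx)
    exact this
  have hfin : 2 ≤ finrank F (LinearMap.ker L) := by
    have h3 := LinearMap.finrank_range_add_finrank_ker L
    have h4 : finrank F (LinearMap.range L) ≤ finrank F W := by
      refine (Submodule.finrank_le _).trans ?_
      rw [Module.finrank_linearMap, finrank_self, mul_one]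
    rw [Module.finrank_pi, Fintype.card_sum, Fintype.card_fin] at h3
    omega
  by_cases hv : ∃ v ∈ LinearMap.ker L, qPlus m F v ≠ 0
  · obtain ⟨v, hvL, hvq⟩ := hv
    have hvq1 : qPlus m F v = 1 := (F01 _).resolve_left hvq
    have hv0 : v ≠ 0 := by rintro rfl; exact hvq (QuadraticMap.map_zero _)
    obtain ⟨z, hz⟩ := exists_polar hv0
    let T : (Fin m ⊕ Fin m → F) →ₗ[F] (Fin m ⊕ Fin m → F) := LinearMap.id + (B.flip v).smulRight v
    have hTz : ∀ z, T z = z + QuadraticMap.polar (qPlus m F) z v • v := fun z => rfl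
    have hpv : QuadraticMap.polar (qPlus m F) v v = 0 := by
      rw [QuadraticMap.polar_self, hvq1, nsmul_eq_mul, mul_one, Nat.cast_ofNat, h2]
    obtain ⟨t, ht⟩ := exists_elt T (by
      refine LinearMap.ext fun z => ?_
      change T (T z) = z
      rw [hTz (T z), hTz z, QuadraticMap.polar_add_left, QuadraticMap.polar_smul_left, hpv, smul_zero, add_zero, add_assoc,
        ← add_smul, CharTwo.add_self_eq_zero, zero_smul, add_zero]) (by
      intro z
      rw [hTz, QuadraticMap.map_add (qPlus m F), QuadraticMap.map_smul, hvq1, QuadraticMap.polar_smul_right]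
      rw [smul_eq_mul, smul_eq_mul, mul_one, add_assoc, CharTwo.add_self_eq_zero, add_zero])
    refine ⟨t, ?_, ?_⟩
    · rintro rfl
      have h5 := ht z
      change (1 : Matrix (Fin m ⊕ Fin m) (Fin m ⊕ Fin m) F) *ᵥ z = _ at h5
      rw [Matrix.one_mulVec, hTz] at h5
      have h6 : QuadraticMap.polar (qPlus m F) z v • v = 0 := by simpa using h5
      rcases smul_eq_zero.1 h6 with h7 | h7
      · exact hz h7
      · exact hv0 h7
    · intro w hw
      rw [ht, hTz, QuadraticMap.polar_comm, hL v hvL w hw, zero_smul, add_zero]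
  · push Not at hv
    obtain ⟨x, y, hxy⟩ : ∃ x y : LinearMap.ker L, LinearIndependent F ![x, y] := by
      obtain ⟨f, hf⟩ := (exists_linearIndependent_of_le_finrank hfin)
      refine ⟨f 0, f 1, ?_⟩
      convert hf using 1
      funext i
      fin_cases i <;> rfl
    have hx0 : (x : Fin m ⊕ Fin m → F) ≠ 0 := by
      intro h
      exact hxy.ne_zero 0 (Subtype.ext h)
    obtain ⟨z, hz⟩ := exists_polar hx0
    let T : (Fin m ⊕ Fin m → F) →ₗ[F] (Fin m ⊕ Fin m → F) :=
      LinearMap.id + ((B.flip x).smulRight (y : Fin m ⊕ Fin m → F) + (B.flip y).smulRight (x : Fin m ⊕ Fin m → F))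
    have hTz : ∀ z, T z = z + (QuadraticMap.polar (qPlus m F) z x • (y : Fin m ⊕ Fin m → F) +
      QuadraticMap.polar (qPlus m F) z y • (x : Fin m ⊕ Fin m → F)) := fun z => rfl
    have hqx := hv x x.2
    have hqy := hv y y.2
    have hqxy : QuadraticMap.polar (qPlus m F) (x : Fin m ⊕ Fin m → F) y = 0 := by
      rw [QuadraticMap.polar, hqx, hqy, hv _ (add_mem x.2 y.2), sub_zero, sub_zero]
    have hqyx : QuadraticMap.polar (qPlus m F) (y : Fin m ⊕ Fin m → F) x = 0 := by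
      rw [QuadraticMap.polar_comm, hqxy]
    have hqxx : QuadraticMap.polar (qPlus m F) (x : Fin m ⊕ Fin m → F) x = 0 := by
      rw [QuadraticMap.polar_self, hqx, smul_zero]
    have hqyy : QuadraticMap.polar (qPlus m F) (y : Fin m ⊕ Fin m → F) y = 0 := by
      rw [QuadraticMap.polar_self, hqy, smul_zero]
    obtain ⟨t, ht⟩ := exists_elt T (by
      refine LinearMap.ext fun z => ?_
      change T (T z) = z
      have h5 : QuadraticMap.polar (qPlus m F) (T z) x = QuadraticMap.polar (qPlus m F) z x := by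
        rw [hTz, QuadraticMap.polar_add_left, QuadraticMap.polar_add_left, QuadraticMap.polar_smul_left,
          QuadraticMap.polar_smul_left, hqyx, hqxx, smul_zero, smul_zero, add_zero, add_zero]
      have h6 : QuadraticMap.polar (qPlus m F) (T z) y = QuadraticMap.polar (qPlus m F) z y := by
        rw [hTz, QuadraticMap.polar_add_left, QuadraticMap.polar_add_left, QuadraticMap.polar_smul_left,
          QuadraticMap.polar_smul_left, hqyy, hqxy, smul_zero, smul_zero, add_zero, add_zero]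
      rw [hTz (T z), h5, h6, hTz z, add_assoc]
      have h7 : ∀ w : Fin m ⊕ Fin m → F, w + w = 0 := by
        intro w; funext i; exact CharTwo.add_self_eq_zero _
      rw [h7, add_zero]) (by
      intro z
      rw [hTz, QuadraticMap.map_add (qPlus m F), QuadraticMap.map_add (qPlus m F), QuadraticMap.map_smul, QuadraticMap.map_smul, hqx, hqy,
        QuadraticMap.polar_smul_right, QuadraticMap.polar_smul_left, hqyx, QuadraticMap.polar_add_right,
        QuadraticMap.polar_smul_right, QuadraticMap.polar_smul_right]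
      simp only [smul_eq_mul, mul_zero, add_zero, zero_add]
      rw [mul_comm (QuadraticMap.polar (qPlus m F) z y), CharTwo.add_self_eq_zero, add_zero])
    refine ⟨t, ?_, ?_⟩
    · rintro rfl
      have h5 := ht z
      change (1 : Matrix (Fin m ⊕ Fin m) (Fin m ⊕ Fin m) F) *ᵥ z = _ at h5
      rw [Matrix.one_mulVec, hTz] at h5
      have h6 : QuadraticMap.polar (qPlus m F) z x • (y : Fin m ⊕ Fin m → F) +
        QuadraticMap.polar (qPlus m F) z y • (x : Fin m ⊕ Fin m → F) = 0 := by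
        have := h5.symm
        rwa [add_eq_left] at this
      have h7 := LinearIndependent.pair_iff.1 hxy (QuadraticMap.polar (qPlus m F) z y) (QuadraticMap.polar (qPlus m F) z x)
        (Subtype.ext (by rw [add_comm] at h6; exact h6))
      exact hz h7.2
    · intro w hw
      rw [ht, hTz, QuadraticMap.polar_comm, hL x x.2 w hw, QuadraticMap.polar_comm, hL y y.2 w hw, zero_smul, zero_smul,
        add_zero, add_zero]

/-- the standard totally singular space -/
def U0 (F : Type*) [Field F] (k : ℕ) : Submodule F (Fin (k + 1) ⊕ Fin (k + 1) → F) where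
  carrier := {u | (∀ i, u (.inr i) = 0) ∧ u (.inl (Fin.last k)) = 0}
  add_mem' {a b} ha hb := ⟨fun i => by rw [Pi.add_apply, ha.1, hb.1, add_zero], by rw [Pi.add_apply, ha.2, hb.2, add_zero]⟩
  zero_mem' := ⟨fun _ => rfl, rfl⟩
  smul_mem' c a ha := ⟨fun i => by rw [Pi.smul_apply, ha.1, smul_zero], by rw [Pi.smul_apply, ha.2, smul_zero]⟩

theorem finrank_U0 (k : ℕ) : finrank F (U0 F k) ≤ k := by
  let L : U0 F k →ₗ[F] (Fin k → F) := LinearMap.pi fun i => (LinearMap.proj (Sum.inl i.castSucc)).comp (U0 F k).subtype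
  have hL : Function.Injective L := by
    rw [← LinearMap.ker_eq_bot, LinearMap.ker_eq_bot']
    intro u hu
    apply Subtype.ext
    funext i
    rcases i with i | i
    · induction i using Fin.lastCases with
      | last => exact u.2.2
      | cast i => exact congrFun hu i
    · exact u.2.1 i
  have := LinearMap.finrank_le_finrank_of_injective hL
  rwa [Module.finrank_pi, Fintype.card_fin] at this

theorem isPGroup_C0 [Fintype F] (hF : Fintype.card F = 2) (k : ℕ) : IsPGroup 2 (Cu F (k + 1) (U0 F k : Set _)) := by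
  have : CharP F 2 := by
    have : Fact (Nat.Prime 2) := ⟨Nat.prime_two⟩
    exact charP_of_card_eq_prime_pow (f := 1) (by rw [hF, pow_one])
  have h2 : (2 : F) = 0 := CharTwo.two_eq_zero
  have F01 : ∀ a : F, a = 0 ∨ a = 1 := by
    intro a
    by_cases ha : a = 0
    · exact Or.inl ha
    · right
      have := FiniteField.pow_card_sub_one_eq_one a ha
      rwa [hF, pow_one] at this
  rintro ⟨g, hg⟩
  refine ⟨3, ?_⟩
  set M : Matrix (Fin (k + 1) ⊕ Fin (k + 1)) (Fin (k + 1) ⊕ Fin (k + 1)) F :=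
    ((g : Matrix.GeneralLinearGroup (Fin (k + 1) ⊕ Fin (k + 1)) F) : Matrix (Fin (k + 1) ⊕ Fin (k + 1)) (Fin (k + 1) ⊕ Fin (k + 1)) F) with hM
  have hu : ∀ u, (∀ i, u (.inr i) = 0) → u (.inl (Fin.last k)) = 0 → M *ᵥ u = u := fun u h1 h2 => hg u ⟨h1, h2⟩
  have hpol : ∀ u v, QuadraticMap.polar (qPlus (k + 1) F) (M *ᵥ u) (M *ᵥ v) = QuadraticMap.polar (qPlus (k + 1) F) u v := polar_pres g
  have hqq : ∀ v, Cfsg.quadFormPlus (k + 1) F (M *ᵥ v) = Cfsg.quadFormPlus (k + 1) F v := q_pres g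
  have hne : ∀ i : Fin k, i.castSucc ≠ Fin.last k := fun i => (Fin.castSucc_lt_last i).ne
  -- step (b)
  have hb : ∀ v, ∀ i : Fin k, (M *ᵥ v) (.inr i.castSucc) = v (.inr i.castSucc) := by
    intro v i
    have h1 := hpol v (Pi.single (Sum.inl i.castSucc) 1)
    rw [hu (Pi.single (Sum.inl i.castSucc) 1) (fun j => by simp) (by simp [Pi.single_apply, (hne i).symm]), polar_inl, polar_inl] at h1
    exact h1
  set E : Fin (k + 1) ⊕ Fin (k + 1) → F := Pi.single (Sum.inl (Fin.last k)) 1 with hE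
  set E' : Fin (k + 1) ⊕ Fin (k + 1) → F := Pi.single (Sum.inr (Fin.last k)) 1 with hE'
  have hT0E : ∀ i : Fin k, (M *ᵥ E) (.inr i.castSucc) = 0 := fun i => by rw [hb]; simp [hE]
  have hT0E' : ∀ i : Fin k, (M *ᵥ E') (.inr i.castSucc) = 0 := fun i => by rw [hb]; simp [hE', Pi.single_apply, hne]
  have hQ : ∀ z : Fin (k + 1) ⊕ Fin (k + 1) → F, (∀ i : Fin k, z (.inr i.castSucc) = 0) →
      Cfsg.quadFormPlus (k + 1) F z = z (.inl (Fin.last k)) * z (.inr (Fin.last k)) := by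
    intro z hz
    rw [Cfsg.quadFormPlus, Fin.sum_univ_castSucc]
    simp [hz]
  have hP : ∀ z z' : Fin (k + 1) ⊕ Fin (k + 1) → F, (∀ i : Fin k, z (.inr i.castSucc) = 0) → (∀ i : Fin k, z' (.inr i.castSucc) = 0) →
      QuadraticMap.polar (qPlus (k + 1) F) z z' = z (.inl (Fin.last k)) * z' (.inr (Fin.last k)) +
        z' (.inl (Fin.last k)) * z (.inr (Fin.last k)) := by
    intro z z' hz hz'
    rw [qPlus_polar, Fin.sum_univ_castSucc]
    simp [hz, hz']
  obtain ⟨a1, ha1⟩ : ∃ a, a = (M *ᵥ E) (.inl (Fin.last k)) := ⟨_, rfl⟩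
  obtain ⟨b1, hb1⟩ : ∃ a, a = (M *ᵥ E) (.inr (Fin.last k)) := ⟨_, rfl⟩
  obtain ⟨a2, ha2⟩ : ∃ a, a = (M *ᵥ E') (.inl (Fin.last k)) := ⟨_, rfl⟩
  obtain ⟨b2, hb2⟩ : ∃ a, a = (M *ᵥ E') (.inr (Fin.last k)) := ⟨_, rfl⟩
  have e1 : a1 * b1 = 0 := by
    rw [ha1, hb1, ← hQ _ hT0E, hqq, hQ _ (fun i => by simp [hE])]
    simp [hE]
  have e2 : a2 * b2 = 0 := by
    rw [ha2, hb2, ← hQ _ hT0E', hqq, hQ _ (fun i => by simp [hE', Pi.single_apply, hne])]
    simp [hE']
  have e3 : a1 * b2 + a2 * b1 = 1 := by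
    rw [ha1, hb1, ha2, hb2, ← hP _ _ hT0E hT0E', hpol, hP _ _ (fun i => by simp [hE]) (fun i => by simp [hE', Pi.single_apply, hne])]
    simp [hE, hE']
  -- coordinates of `M z`
  have hco : ∀ z : Fin (k + 1) ⊕ Fin (k + 1) → F, (∀ i : Fin k, z (.inr i.castSucc) = 0) →
      (M *ᵥ z) (.inl (Fin.last k)) = z (.inl (Fin.last k)) * a1 + z (.inr (Fin.last k)) * a2 ∧
      (M *ᵥ z) (.inr (Fin.last k)) = z (.inl (Fin.last k)) * b1 + z (.inr (Fin.last k)) * b2 := by
    intro z hz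
    have h3 : z = (z - z (.inl (Fin.last k)) • E - z (.inr (Fin.last k)) • E') + z (.inl (Fin.last k)) • E + z (.inr (Fin.last k)) • E' := by abel
    have h4 := hu (z - z (.inl (Fin.last k)) • E - z (.inr (Fin.last k)) • E') (by
      intro i
      induction i using Fin.lastCases with
      | last => simp [hE, hE']
      | cast i => simp [hE, hE', hz, Pi.single_apply, hne]) (by simp [hE, hE'])
    have h5 : M *ᵥ z = (z - z (.inl (Fin.last k)) • E - z (.inr (Fin.last k)) • E') + z (.inl (Fin.last k)) • (M *ᵥ E) +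
        z (.inr (Fin.last k)) • (M *ᵥ E') := by
      conv_lhs => rw [h3]
      rw [Matrix.mulVec_add, Matrix.mulVec_add, Matrix.mulVec_smul, Matrix.mulVec_smul, h4]
    constructor
    · rw [h5]
      simp only [Pi.add_apply, Pi.sub_apply, Pi.smul_apply, smul_eq_mul, ← ha1, ← ha2]
      simp [hE, hE']
    · rw [h5]
      simp only [Pi.add_apply, Pi.sub_apply, Pi.smul_apply, smul_eq_mul, ← hb1, ← hb2]
      simp [hE, hE']
  -- `M ^ 2` on the orthogonal space
  have hMM : ∀ z : Fin (k + 1) ⊕ Fin (k + 1) → F, (∀ i : Fin k, z (.inr i.castSucc) = 0) →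
      (M *ᵥ (M *ᵥ z)) (.inl (Fin.last k)) = z (.inl (Fin.last k)) ∧ (M *ᵥ (M *ᵥ z)) (.inr (Fin.last k)) = z (.inr (Fin.last k)) := by
    intro z hz
    have hz' : ∀ i : Fin k, (M *ᵥ z) (.inr i.castSucc) = 0 := fun i => by rw [hb, hz]
    rw [(hco _ hz').1, (hco _ hz').2, (hco _ hz).1, (hco _ hz).2]
    rcases F01 a1 with w1 | w1 <;> rcases F01 a2 with w2 | w2 <;> rcases F01 b1 with w3 | w3 <;> rcases F01 b2 with w4 | w4 <;>
      simp only [w1, w2, w3, w4, mul_zero, mul_one, zero_mul, one_mul, add_zero, zero_add, one_ne_zero, zero_ne_one] at e1 e2 e3 ⊢ <;>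
      simp
  have hMu : ∀ u : Fin (k + 1) ⊕ Fin (k + 1) → F, (∀ i, u (.inr i) = 0) → u (.inl (Fin.last k)) = 0 → M *ᵥ (M *ᵥ u) = u := by
    intro u h1 h2
    rw [hu u h1 h2, hu u h1 h2]
  have hN : ∀ v, (M * M - 1) *ᵥ ((M * M - 1) *ᵥ ((M * M - 1) *ᵥ v)) = 0 := by
    intro v
    have hNv : ∀ v, (M * M - 1) *ᵥ v = M *ᵥ (M *ᵥ v) - v := by
      intro v
      rw [Matrix.sub_mulVec, Matrix.one_mulVec, Matrix.mulVec_mulVec]
    have h1 : ∀ i : Fin k, ((M * M - 1) *ᵥ v) (.inr i.castSucc) = 0 := by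
      intro i
      rw [hNv, Pi.sub_apply, hb, hb, sub_self]
    have h3 : ∀ i, ((M * M - 1) *ᵥ ((M * M - 1) *ᵥ v)) (.inr i) = 0 := by
      intro i
      induction i using Fin.lastCases with
      | last => rw [hNv ((M * M - 1) *ᵥ v), Pi.sub_apply, (hMM _ h1).2, sub_self]
      | cast i => rw [hNv ((M * M - 1) *ᵥ v), Pi.sub_apply, hb, hb, sub_self]
    have h4 : ((M * M - 1) *ᵥ ((M * M - 1) *ᵥ v)) (.inl (Fin.last k)) = 0 := by
      rw [hNv ((M * M - 1) *ᵥ v), Pi.sub_apply, (hMM _ h1).1, sub_self]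
    rw [hNv ((M * M - 1) *ᵥ ((M * M - 1) *ᵥ v)), hMu _ h3 h4, sub_self]
  have hN3 : (M * M - 1) * ((M * M - 1) * (M * M - 1)) = 0 := by
    apply Matrix.mulVec_injective
    funext v
    rw [← Matrix.mulVec_mulVec, ← Matrix.mulVec_mulVec, hN, Matrix.zero_mulVec]
  have hM8 : M ^ 8 = 1 := by
    have h22 : (2 : Matrix (Fin (k + 1) ⊕ Fin (k + 1)) (Fin (k + 1) ⊕ Fin (k + 1)) F) = 0 := by
      have : (2 : Matrix (Fin (k + 1) ⊕ Fin (k + 1)) (Fin (k + 1) ⊕ Fin (k + 1)) F) = (2 : F) • 1 := by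
        rw [two_smul, one_add_one_eq_two]
      rw [this, h2, zero_smul]
    obtain ⟨N, hNN⟩ : ∃ N, N = M * M - 1 := ⟨_, rfl⟩
    rw [← hNN] at hN3
    have h5 : M ^ 2 = 1 + N := by rw [hNN, sq]; abel
    have h6 : M ^ 4 = 1 + N * N := by
      have : M ^ 4 = M ^ 2 * M ^ 2 := by rw [← pow_add]
      rw [this, h5]
      have : (1 + N) * (1 + N) = 1 + 2 * N + N * N := by noncomm_ring
      rw [this, h22, zero_mul, add_zero]
    have h7 : M ^ 8 = M ^ 4 * M ^ 4 := by rw [← pow_add]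
    rw [h7, h6]
    have : (1 + N * N) * (1 + N * N) = 1 + 2 * (N * N) + (N * (N * N)) * N := by noncomm_ring
    rw [this, h22, zero_mul, add_zero, hN3, zero_mul, add_zero]
  apply Subtype.ext
  apply Subtype.ext
  apply Units.ext
  exact hM8

end Cfsg.Agent.H16.OSy
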