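import Cfsg.Agent.H16_PolE
import Cfsg.Agent.H16_Sieg
import Cfsg.Agent.H16_MatOm
import Cfsg.Prelude.Def_LieTypeDatum

set_option autoImplicit false

/-! The orthogonal groups as polar spaces with groups. -/

namespace Cfsg.Agent.H16.POm

open Matrix Cfsg.Agent.H16.Ps Module
open QuadraticMap (polar)
open Cfsg.Agent.H16

/-- quadratic spaces as polar spaces. -/
def quP {F V : Type*} [Field F] [AddCommGroup V] [Module F V] (Q : QuadraticForm F V)
    (hQ : (QuadraticMap.polarBilin Q).Nondegenerate) : Pol F V where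
  bar := RingHom.id F
  bar_bar _ := rfl
  ε := 1
  eps_mul := one_mul 1
  bar_eps := rfl
  h x y := polar Q x y
  h_add_right x y z := QuadraticMap.polar_add_right Q x y z
  h_smul_right a x y := Quad.polar_smul_right Q a x y
  h_symm x y := by rw [RingHom.id_apply, one_mul]; exact Quad.polar_symm Q y x
  sg x := Q x = 0
  sg_smul a x hx := by rw [Quad.map_smul, hx, mul_zero]
  sg_self x hx := by rw [Quad.polar_self, hx, mul_zero]
  sg_add x y hx hy h := by rw [Quad.map_add, hx, hy, h]; ring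
  sg_adj x y hx h := by
    refine ⟨-(Q y * (polar Q x y)⁻¹), ?_⟩
    rw [Quad.map_add, Quad.map_smul, hx, Quad.polar_smul_right, Quad.polar_symm Q y x]
    field_simp
    ring
  nondeg x hx := Quad.nd_eq_zero hQ hx

theorem sub_quP {F V : Type*} [Field F] [AddCommGroup V] [Module F V] {Q : QuadraticForm F V}
    (hQ : (QuadraticMap.polarBilin Q).Nondegenerate) {e f : V} (he : (quP Q hQ).sg e) (hf : (quP Q hQ).sg f)
    (hef : (quP Q hQ).h e f = 1) :
    (QuadraticMap.polarBilin (Q.comp ((quP Q hQ).perp e f).subtype)).Nondegenerate := by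
  apply Quad.nd_of
  intro x hx
  exact ((quP Q hQ).sub he hf hef).nondeg x hx

section Rich

variable {F V : Type*} [Field F] [Finite F] [AddCommGroup V] [Module F V] [Finite V] {Q : QuadraticForm F V}
  (hQ : (QuadraticMap.polarBilin Q).Nondegenerate)

include hQ

theorem rich_quP (h3 : 3 ≤ finrank F V) : (quP Q hQ).Rich := by
  have hfd : FiniteDimensional F V := Module.Finite.of_finite
  intro x y hx hy hxy
  set y' := ((quP Q hQ).h x y)⁻¹ • y with hy'
  have h1 : (quP Q hQ).h x y' = 1 := by rw [hy', (quP Q hQ).h_smul_right, inv_mul_cancel₀ hxy]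
  have hsy' : (quP Q hQ).sg y' := (quP Q hQ).sg_smul _ _ hy
  have h2 := (quP Q hQ).finrank_perp hx hsy' h1
  obtain ⟨w, hw⟩ := Quad.exists_nonsing (sub_quP hQ hx hsy' h1) (by omega)
  have hw' : Q (w : V) ≠ 0 := hw
  have hxw : polar Q x (w : V) = 0 := w.2.1
  have hyw : polar Q y' (w : V) = 0 := w.2.2
  have h1' : polar Q x y' = 1 := h1
  have hxx : polar Q x x = 0 := (quP Q hQ).sg_self x hx
  have hyy : polar Q y' y' = 0 := (quP Q hQ).sg_self y' hsy'
  refine ⟨x - Q (w : V) • y' + w, ?_, ?_, ?_⟩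
  · change Q _ = 0
    rw [Quad.map_add, Quad.map_sub, Quad.map_smul, QuadraticMap.polar_sub_left, Quad.polar_smul_right,
      Quad.polar_smul_left, hxw, hyw, h1']
    have e1 : Q x = 0 := hx
    have e2 : Q y' = 0 := hsy'
    rw [e1, e2]; ring
  · change polar Q x _ ≠ 0
    rw [QuadraticMap.polar_add_right, QuadraticMap.polar_sub_right, Quad.polar_smul_right, hxw, hxx, h1']
    simpa using hw'
  · have e1 : polar Q y' (x - Q (w : V) • y' + w) = 1 := by
      rw [QuadraticMap.polar_add_right, QuadraticMap.polar_sub_right, Quad.polar_smul_right, hyw, hyy,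
        Quad.polar_symm Q y' x, h1']
      ring
    change polar Q y _ ≠ 0
    intro h
    have e2 : ∀ z, polar Q y' z = ((quP Q hQ).h x y)⁻¹ * polar Q y z := fun z => by
      rw [hy', Quad.polar_smul_left]
    rw [e2, h, mul_zero] at e1
    exact zero_ne_one e1

theorem exists_sg_quP (h3 : 3 ≤ finrank F V) : ∃ x, (quP Q hQ).sg x ∧ x ≠ 0 := by
  have hfd : FiniteDimensional F V := Module.Finite.of_finite
  obtain ⟨v, h1, h2⟩ := Quad.exists_singular hQ h3
  exact ⟨v, h2, h1⟩

end Rich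

section Inst

variable {ι : Type} [Fintype ι] [DecidableEq ι] {F : Type*} [Field F] [Finite F]

/-- the matrix of an element of `Ω`. -/
def mt {Q : (ι → F) → F} (s : Cfsg.Omega F Q) : Matrix ι ι F :=
  (((s : Cfsg.isometryGroup F Q) : GL ι F) : Matrix ι ι F)

omit [Finite F] in
theorem mt_Q {Q : (ι → F) → F} (s : Cfsg.Omega F Q) (x : ι → F) : Q (mt s *ᵥ x) = Q x :=
  Quad.mem_isometryGroup.mp s.1.2 x

omit [Finite F] in
theorem ext_mt {Q : (ι → F) → F} {s t : Cfsg.Omega F Q} (h : ∀ x, mt s *ᵥ x = mt t *ᵥ x) : s = t := by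
  apply Subtype.ext
  apply Subtype.ext
  apply Units.ext
  exact Quad.mat_ext h

omit [Finite F] in
theorem mt_polar {Q : QuadraticForm F (ι → F)} (s : Cfsg.Omega F ⇑Q) (x y : ι → F) :
    polar Q (mt s *ᵥ x) (mt s *ᵥ y) = polar Q x y := by
  have h := fun x => mt_Q s x
  rw [polar, polar, ← mulVec_add, h, h, h]

/-- a nondegenerate quadratic form of dimension at least seven. -/
structure OD (ι F : Type*) [Fintype ι] [Field F] where
  Q : QuadraticForm F (ι → F)
  nd : (QuadraticMap.polarBilin Q).Nondegenerate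
  h7 : 7 ≤ Fintype.card ι

/-- the orthogonal group on its polar space. -/
noncomputable def omG (A : OD ι F) : PolG F (ι → F) (Cfsg.Omega F ⇑A.Q) where
  toPol := quP A.Q A.nd
  r := ((Units.coeHom (Module.End F (ι → F))).comp
    (Matrix.GeneralLinearGroup.toLin : GL ι F ≃* _).toMonoidHom).comp
      ((Cfsg.isometryGroup F ⇑A.Q).subtype.comp (Cfsg.Omega F ⇑A.Q).subtype)
  r_inj := by
    intro s t h
    exact ext_mt fun v => congrArg (fun f : Module.End F (ι → F) => f v) h
  r_h s x y := mt_polar s x y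
  r_sg s x hx := (mt_Q s x).trans hx
  exE z v w hz hv hw hzv hzw := by
    have hf : 5 ≤ finrank F (ι → F) := by rw [Module.finrank_fintype_fun_eq_card]; have := A.h7; omega
    have hzv' : polar A.Q z v = 1 := hzv
    have hzw' : polar A.Q z w = 1 := hzw
    have h1 : polar A.Q z (w - v) = 0 := by rw [QuadraticMap.polar_sub_right, hzv', hzw', sub_self]
    have hz' : A.Q z = 0 := hz
    have hv' : A.Q v = 0 := hv
    have hw' : A.Q w = 0 := hw
    have h2 : Quad.sg hz' h1 ∈ commutator (Quad.OG A.Q) := by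
      rw [Quad.commutator_eq_siegS A.nd hf]
      exact Quad.sg_mem_siegS' A.nd hf hz' h1
    have h3 : (Quad.toOG A.Q).symm (Quad.sg hz' h1) ∈ Cfsg.Omega F ⇑A.Q := by
      rw [Quad.mem_Omega_iff, MulEquiv.apply_symm_apply]
      exact h2
    refine ⟨⟨_, h3⟩, fun x => ?_⟩
    have h4 := Quad.toOG_symm_mulVec A.Q (Quad.sg hz' h1) x
    refine h4.trans ?_
    change Quad.siegel hz' h1 x = _
    rw [Quad.siegel_apply]
    change _ = x + polar A.Q z x • (w - v) - (1 * polar A.Q (w - v) x) • z + (1 * polar A.Q w v * polar A.Q z x) • z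
    have h5 : A.Q (w - v) = -polar A.Q w v := by rw [Quad.map_sub, hv', hw']; ring
    rw [h5, Quad.polar_symm A.Q x z, Quad.polar_symm A.Q x (w - v)]
    module


variable {A : OD ι F}

theorem omG_r (s : Cfsg.Omega F ⇑A.Q) (x : ι → F) : (omG A).r s x = mt s *ᵥ x := rfl

theorem finV : finrank F (ι → F) = Fintype.card ι := Module.finrank_fintype_fun_eq_card F

theorem rich : (omG A).Rich := rich_quP A.nd (by rw [finV]; have := A.h7; omega)

theorem exists_sg : ∃ x, (omG A).sg x ∧ x ≠ 0 :=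
  exists_sg_quP A.nd (by rw [finV]; have := A.h7; omega)

theorem span_top (x : ι → F) : x ∈ Submodule.span F {y | (omG A).sg y} := by
  obtain ⟨e, he, he0⟩ := exists_sg (A := A)
  exact (omG A).span_sg he he0 x

/-- the projective orthogonal group on its polar space. -/
noncomputable def omT (A : OD ι F) : PolT F (ι → F) (Cfsg.Omega F ⇑A.Q) (Cfsg.POmega F ⇑A.Q) :=
  (omG A).toT rich span_top exists_sg

theorem hne : ∀ v f, (omG A).sg v → (omG A).sg f →
    (omG A).h v f = 1 → ∃ x ∈ (omG A).perp v f, (omG A).sg x ∧ x ≠ 0 := by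
  intro v f hv hf hvf
  have h1 := (omG A).finrank_perp hv hf hvf
  rw [finV] at h1
  obtain ⟨⟨x, hx⟩, hx0, hxs⟩ := Quad.exists_singular (sub_quP A.nd hv hf hvf) (by
    change 3 ≤ finrank F ((omG A).perp v f)
    have := A.h7
    omega)
  exact ⟨x, hx, hxs, fun h => hx0 (Subtype.ext h)⟩

theorem hN : ∀ v f, (omG A).sg v → (omG A).sg f →
    (omG A).h v f = 1 → ∀ x ∈ (omG A).perp v f, ∀ y ∈ (omG A).perp v f, (omG A).sg x →
      (omG A).sg y → x ≠ 0 → y ≠ 0 →
      ∃ z ∈ (omG A).perp v f, (omG A).sg z ∧ (omG A).h x z ≠ 0 ∧ (omG A).h y z ≠ 0 := by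
  intro v f hv hf hvf x hx y hy hsx hsy hx0 hy0
  have h1 := (omG A).finrank_perp hv hf hvf
  rw [finV] at h1
  have hr : (quP (A.Q.comp ((omG A).perp v f).subtype) (sub_quP A.nd hv hf hvf)).Rich := rich_quP (sub_quP A.nd hv hf hvf) (by
    change 3 ≤ finrank F ((omG A).perp v f)
    have := A.h7; omega)
  obtain ⟨z, hsz, h1, h2⟩ := hr.common (x := ⟨x, hx⟩) (y := ⟨y, hy⟩) hsx hsy
    (fun h => hx0 (congrArg Subtype.val h)) (fun h => hy0 (congrArg Subtype.val h))
  exact ⟨z, z.2, hsz, h1, h2⟩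

/-- a singular vector orthogonal to two hyperbolic pairs. -/
theorem hne2 {v f x y : ι → F} (hv : (omG A).sg v)
    (hf : (omG A).sg f) (hvf : (omG A).h v f = 1) (hx : x ∈ (omG A).perp v f)
    (hy : y ∈ (omG A).perp v f) (hsx : (omG A).sg x) (hsy : (omG A).sg y)
    (hxy : (omG A).h x y = 1) : ∃ z ∈ (omG A).perp v f, (omG A).sg z ∧ z ≠ 0 ∧
      (omG A).h x z = 0 ∧ (omG A).h y z = 0 := by
  have h1 := (omG A).finrank_perp hv hf hvf
  rw [finV] at h1
  set W := (omG A).perp v f with hW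
  set P' := quP (A.Q.comp W.subtype) (sub_quP A.nd hv hf hvf) with hP'
  have hx' : P'.sg ⟨x, hx⟩ := hsx
  have hy' : P'.sg ⟨y, hy⟩ := hsy
  have hxy' : P'.h ⟨x, hx⟩ ⟨y, hy⟩ = 1 := hxy
  have h2 := P'.finrank_perp hx' hy' hxy'
  obtain ⟨⟨⟨z, hz⟩, hz1, hz2⟩, hz0, hzs⟩ := Quad.exists_singular (sub_quP (sub_quP A.nd hv hf hvf) hx' hy' hxy') (by
    change 3 ≤ finrank F (P'.perp ⟨x, hx⟩ ⟨y, hy⟩)
    have := A.h7
    omega)
  exact ⟨z, hz, hzs, fun h => hz0 (Subtype.ext (Subtype.ext h)), hz1, hz2⟩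

theorem irr : (omG A).Irr := by
  refine (omG A).irr_of hne hN ?_
  intro v f hv hf hvf W hW x hx hxW hx0
  set P := omG A with hP
  -- a singular vector not orthogonal to `x`
  obtain ⟨y, hy, hsy, hyx⟩ : ∃ y ∈ P.perp v f, P.sg y ∧ P.h x y ≠ 0 := by
    by_contra hcon
    push Not at hcon
    refine hx0 ?_
    have h1 : ∀ z ∈ P.perp v f, P.h x z = 0 := by
      intro z hz
      have hsp := P.span_perp hv hf hvf (hne v f hv hf hvf) z hz
      clear hz
      induction hsp using Submodule.span_induction with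
      | mem y hy => exact hcon y hy.1 hy.2
      | zero => exact P.h_zero_right _
      | add x y _ _ h1 h2 => rw [P.h_add_right, h1, h2, add_zero]
      | smul a x _ h1 => rw [P.h_smul_right, h1, mul_zero]
    have h2 := (P.sub hv hf hvf).nondeg ⟨x, hx⟩ (fun y => h1 y y.2)
    exact congrArg Subtype.val h2
  have hy0 : y ≠ 0 := by rintro rfl; exact hyx (P.h_zero_right _)
  have hyx' := P.h_comm_ne hyx
  obtain ⟨⟨g, hg⟩, hsg, hyg⟩ := (P.sub hv hf hvf).exists_opp (v := ⟨y, hy⟩) hsy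
    (fun h => hy0 (congrArg Subtype.val h))
  have hsg' : P.sg g := hsg
  have hyg' : P.h y g = 1 := hyg
  obtain ⟨z, hz, hsz, hz0, hyz, hgz⟩ := hne2 hv hf hvf hy hg hsy hsg' hyg'
  obtain ⟨s, hs, -, -, hact⟩ := P.exE0 hsy hsg' hyg' hsz hyz hgz
  have h1 : P.r s v = v := by
    rw [hact, P.h_comm_zero.mp hy.1, P.h_comm_zero.mp hz.1]
    simp
  have h2 := hW s (by rw [h1]; exact Sim.refl v) x hxW
  have h3 : P.h y x • z - (P.ε * P.h z x) • y ∈ W := by
    have := W.sub_mem h2 hxW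
    rw [hact, add_sub_assoc, add_sub_cancel_left] at this
    exact this
  refine ⟨_, ?_, h3, ?_, ?_⟩
  · exact (P.perp v f).sub_mem ((P.perp v f).smul_mem _ hz) ((P.perp v f).smul_mem _ hy)
  · exact P.sg_sub (P.sg_smul _ _ hsz) (P.sg_smul _ _ hsy) (by
      rw [P.h_smul_left, P.h_smul_right, P.h_comm_zero.mp hyz, mul_zero, mul_zero])
  · intro h
    have h4 := congrArg (P.h g) h
    rw [P.h_sub_right, P.h_smul_right, P.h_smul_right, hgz, mul_zero, zero_sub, P.h_zero_right,
      P.h_fe hyg'] at h4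
    have h5 : P.ε * P.h z x = 0 := by
      have := P.eps_ne
      simpa [this] using h4
    rw [h5, zero_smul, sub_zero] at h
    exact (smul_ne_zero hyx' hz0) h

theorem hE {α : MulAut (Cfsg.POmega F ⇑A.Q)} :
    ∀ e f e' f', (omT A).Setup α e f e' f' →
    ∀ x ∈ (omT A).perp e f, ∀ y ∈ (omT A).perp e f, (omT A).sg x → (omT A).sg y →
      (omT A).h x y ≠ 0 → ∀ a n : F,
        PolT.Setup.A (omT A) α e f e' f' (a • x) = n • PolT.Setup.A (omT A) α e f e' f' x →
        PolT.Setup.A (omT A) α e f e' f' (a • y) = n • PolT.Setup.A (omT A) α e f e' f' y := by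
  intro e f e' f' D x hx y hy hsx hsy hxy a n h
  set P := omT A with hP
  have hx0 : x ≠ 0 := by rintro rfl; exact hxy (P.h_zero_left _)
  have hy0 : y ≠ 0 := by rintro rfl; exact hxy (P.h_zero_right _)
  have h1 : P.h x ((P.h x y)⁻¹ • y) = 1 := by rw [P.h_smul_right, inv_mul_cancel₀ hxy]
  obtain ⟨z, hz, hsz, hz0, hxz, hyz⟩ := hne2 (A := A) D.he.sg D.hf.sg D.hef hx ((P.perp e f).smul_mem _ hy)
    hsx (P.sg_smul _ _ hsy) h1
  have hyz' : P.h y z = 0 := by
    have h2 : P.h ((P.h x y)⁻¹ • y) z = 0 := hyz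
    rw [P.h_smul_left] at h2
    exact (mul_eq_zero.mp h2).resolve_left (P.bar_ne_zero (inv_ne_zero hxy))
  have hxz' : P.h x z = 0 := hxz
  have hns : ¬ Sim F x z := by
    rintro ⟨c, hc, rfl⟩
    rw [P.h_smul_right] at hyz'
    exact hxy (P.h_comm_zero.mpr ((mul_eq_zero.mp hyz').resolve_left hc))
  have hns' : ¬ Sim F z y := by
    rintro ⟨c, hc, rfl⟩
    rw [P.h_smul_right, hxz', mul_zero] at hxy
    exact hxy rfl
  have h3 := D.mu_conn hx hz hsx hsz hx0 hz0 hns (P.sg_add _ _ hsx hsz hxz') h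
  exact D.mu_conn hz hy hsz hsy hz0 hy0 hns' (P.sg_add _ _ hsz hsy (P.h_comm_zero.mpr hyz')) h3

end Inst

end Cfsg.Agent.H16.POm
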