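import Cfsg.Agent.H16_PolD

set_option autoImplicit false

/-! Orthogonal complements and counting. -/

namespace Cfsg.Agent.H16.Ps

open Module

namespace Pol

variable {F V : Type*} [Field F] [AddCommGroup V] [Module F V] (P : Pol F V)

/-- the orthogonal complement. -/
def orth (W : Submodule F V) : Submodule F V where
  carrier := {x | ∀ w ∈ W, P.h w x = 0}
  add_mem' := fun {x y} hx hy w hw => by rw [P.h_add_right, hx w hw, hy w hw, add_zero]
  zero_mem' := fun w _ => P.h_zero_right w
  smul_mem' := fun c x hx w hw => by rw [P.h_smul_right, hx w hw, mul_zero]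

theorem mem_orth {W : Submodule F V} {x : V} : x ∈ P.orth W ↔ ∀ w ∈ W, P.h w x = 0 := Iff.rfl

/-- dual vectors. -/
theorem dual_surj {k : ℕ} {b : Fin k → V} (hb : LinearIndependent F b) :
    Function.Surjective (LinearMap.pi fun i => P.lin (b i) : V →ₗ[F] (Fin k → F)) := by
  set f : V →ₗ[F] (Fin k → F) := LinearMap.pi fun i => P.lin (b i) with hf'
  rw [← LinearMap.dualMap_injective_iff, injective_iff_map_eq_zero]
  intro φ hφ
  have h1 : ∀ y, ∑ i, P.h (b i) y * φ (Pi.single i 1) = 0 := by
    intro y
    have h2 := congrArg (fun ψ : Dual F V => ψ y) hφ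
    simp only [LinearMap.dualMap_apply, LinearMap.zero_apply] at h2
    rw [← h2]
    have h3 : f y = ∑ i, P.h (b i) y • (Pi.single i (1 : F) : Fin k → F) := by
      funext j
      simp [f, Finset.sum_apply, Pi.single_apply, Pol.lin_apply]
    rw [h3, map_sum]
    simp
  have h4 : ∑ i, P.bar (φ (Pi.single i 1)) • b i = 0 := by
    refine P.nondeg _ fun y => ?_
    rw [← P.h_comm_zero, P.h_sum_right]
    have h5 := congrArg (fun t => P.ε * P.bar t) (h1 y)
    simp only [map_zero, mul_zero, map_sum, Finset.mul_sum, map_mul] at h5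
    rw [← h5]
    refine Finset.sum_congr rfl fun i _ => ?_
    rw [P.h_smul_right, P.h_symm (b i) y]
    ring
  rw [Fintype.linearIndependent_iff] at hb
  have h5 := hb _ h4
  apply LinearMap.pi_ext'
  intro i
  apply LinearMap.ext_ring
  have := h5 i
  rw [P.bar_eq_zero] at this
  exact this

theorem finrank_orth [Module.Finite F V] (W : Submodule F V) :
    finrank F (P.orth W) + finrank F W = finrank F V := by
  let b := finBasis F W
  have hb : LinearIndependent F (fun i => (b i : V)) :=
    b.linearIndependent.map' W.subtype (Submodule.ker_subtype W)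
  have h1 := P.dual_surj hb
  have h2 := LinearMap.finrank_range_add_finrank_ker (LinearMap.pi fun i => P.lin (b i : V) : V →ₗ[F] (Fin (finrank F W) → F))
  rw [LinearMap.range_eq_top.mpr h1, finrank_top, finrank_fintype_fun_eq_card, Fintype.card_fin] at h2
  have h3 : LinearMap.ker (LinearMap.pi fun i => P.lin (b i : V) : V →ₗ[F] (Fin (finrank F W) → F)) = P.orth W := by
    ext x
    constructor
    · intro h w hw
      have h4 : ∀ i, P.h (b i) x = 0 := fun i => congrFun (LinearMap.mem_ker.mp h) i
      have h5 : w = ∑ i, b.repr ⟨w, hw⟩ i • (b i : V) := by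
        have := congrArg Subtype.val (b.sum_repr ⟨w, hw⟩)
        refine Eq.trans (show w = ((⟨w, hw⟩ : W) : V) from rfl) (this.symm.trans ?_)
        rw [AddSubmonoidClass.coe_finset_sum]
        rfl
      rw [h5, ← P.h_comm_zero, P.h_sum_right]
      refine Finset.sum_eq_zero fun i _ => ?_
      rw [P.h_smul_right, P.h_comm_zero.mp (h4 i), mul_zero]
    · intro h
      rw [LinearMap.mem_ker]
      funext i
      exact h (b i) (b i).2
  rw [h3] at h2
  omega

/-- a totally isotropic subspace with totally isotropic complement. -/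
theorem finrank_eq_of_orth [Module.Finite F V] {W : Submodule F V} (hWi : ∀ w ∈ W, ∀ x ∈ W, P.h w x = 0)
    (h : ∀ u ∈ P.orth W, ∀ u' ∈ P.orth W, P.h u u' = 0) : 2 * finrank F W = finrank F V := by
  have h1 := P.finrank_orth W
  have h2 := P.finrank_orth (P.orth W)
  have h3 : finrank F W ≤ finrank F (P.orth W) := Submodule.finrank_mono fun x hx w hw => hWi w hw x hx
  have h4 : finrank F (P.orth W) ≤ finrank F (P.orth (P.orth W)) :=
    Submodule.finrank_mono fun x hx w hw => h w hw x hx
  omega

end Pol

theorem card_lt (k : ℕ) : 2 * (Finset.univ.filter fun p : Fin k × Fin k => p.1 < p.2).card = k * (k - 1) := by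
  have h1 : (Finset.univ.filter fun p : Fin k × Fin k => p.1 < p.2).card = ∑ i : Fin k, (k - 1 - (i : ℕ)) := by
    rw [Finset.card_filter, ← Finset.univ_product_univ, Finset.sum_product]
    refine Finset.sum_congr rfl fun i _ => ?_
    rw [← Finset.card_filter, ← Fin.card_Ioi]
    congr 1
    ext j
    simp
  rw [h1, Fin.sum_univ_eq_sum_range (fun i => k - 1 - i) k, Finset.sum_range_reflect (fun i => i) k, mul_comm,
    Finset.sum_range_id_mul_two]

theorem card_le (k : ℕ) : 2 * (Finset.univ.filter fun p : Fin k × Fin k => p.1 ≤ p.2).card = k * (k + 1) := by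
  have h1 : (Finset.univ.filter fun p : Fin k × Fin k => p.1 ≤ p.2).card = ∑ i : Fin k, (k - (i : ℕ)) := by
    rw [Finset.card_filter, ← Finset.univ_product_univ, Finset.sum_product]
    refine Finset.sum_congr rfl fun i _ => ?_
    rw [← Finset.card_filter, ← Fin.card_Ici]
    congr 1
    ext j
    simp
  have h2 : ∑ i : Fin k, (k - (i : ℕ)) = ∑ i : Fin k, ((k - 1 - (i : ℕ)) + 1) :=
    Finset.sum_congr rfl fun i _ => by have := i.2; omega
  rw [h1, h2, Finset.sum_add_distrib, Fin.sum_univ_eq_sum_range (fun i => k - 1 - i) k,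
    Finset.sum_range_reflect (fun i => i) k]
  have h3 := Finset.sum_range_id_mul_two k
  simp only [Finset.sum_const, Finset.card_univ, Fintype.card_fin, smul_eq_mul, mul_one]
  rcases k with _ | k
  · simp
  · simp only [Nat.add_sub_cancel] at h3
    nlinarith

end Cfsg.Agent.H16.Ps
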