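import Cfsg.Agent.H16_POm1
import Cfsg.Agent.H16_PolE

set_option autoImplicit false

/-! Orthogonal groups: automorphisms permute the points. -/

namespace Cfsg.Agent.H16.POm

open Matrix Cfsg.Agent.H16.Ps Module
open QuadraticMap (polar)
open Cfsg.Agent.H16

variable {ι : Type} [Fintype ι] [DecidableEq ι] {F : Type*} [Field F] [Finite F] {A : OD ι F}

instance finOm {Q : (ι → F) → F} : Finite (Cfsg.Omega F Q) :=
  Finite.of_injective (fun s : Cfsg.Omega F Q => (((s : Cfsg.isometryGroup F Q) : GL ι F)))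
    (Subtype.val_injective.comp Subtype.val_injective)

theorem hX1 {v : ι → F} (hv : (omG A).sg v) (hv0 : v ≠ 0) : ∀ t ∈ (omG A).X v, t = 1 := by
  intro t ht
  obtain ⟨f, hf, hvf⟩ := (omG A).exists_opp hv hv0
  have hs : (omG A).sg ((omG A).r t f) := (omG A).r_sg t f hf
  obtain ⟨a, ha⟩ := (omG A).r_f hv hf hvf ht.1
  rw [((omG A).mem_X_iff hv hf hvf ht.1).mp ht, add_zero] at ha
  rw [ha] at hs
  have hs' : A.Q (f + a • v) = 0 := hs
  have hf' : A.Q f = 0 := hf
  have hv' : A.Q v = 0 := hv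
  have hvf' : polar A.Q v f = 1 := hvf
  rw [Quad.map_add, Quad.map_smul, hf', hv', Quad.polar_smul_right, Quad.polar_symm A.Q f v, hvf'] at hs'
  have ha0 : a = 0 := by linear_combination hs'
  rw [ha0, zero_smul, add_zero] at ha
  exact (omG A).Q_ext hvf ht.1 (one_mem _) (by rw [ha, (omG A).r_one])

theorem hrel (hR : ∀ v, (omG A).sg v → v ≠ 0 → ∀ W : Submodule F (ι → F), (∀ w ∈ W, A.Q w = 0) →
      2 * finrank F W = Fintype.card ι → Nat.card ((omG A).Q v) < Nat.card ((omG A).RR W))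
    (α : MulAut (Cfsg.POmega F ⇑A.Q)) (v : ι → F) (hv : (omG A).sg v) (hv0 : v ≠ 0) :
    ∃ v', (omT A).Rel α v v' := by
  have hsym : ∀ x y, (omG A).h x y = (omG A).h y x := fun x y => Quad.polar_symm A.Q x y
  refine (omT A).rel_of_BT (PolG.big_of_rich rich) ?_ irr
    (fun v hv hv0 s hs t ht => PolG.Q_comm (P := omG A) hsym hv hv0 hs ht) ?_ α hv hv0
  · intro v f hv hf hvf
    obtain ⟨x, hx, -, hx0⟩ := hne (A := A) v f hv hf hvf
    exact ⟨x, hx, hx0⟩
  · intro v hv hv0 W hWs hWi hex hc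
    change Nat.card ((omG A).Q v) < Nat.card ((omG A).RR W)
    have hrk : 2 * finrank F W = finrank F (ι → F) :=
      (omG A).finrank_eq_of_orth hWi fun u hu u' hu' =>
        PolG.perp_of_comm (P := omG A) hWs hWi hex hc hu hu'
    rw [finV] at hrk
    exact hR v hv hv0 W hWs hrk

/-- the count in the plus case. -/
theorem hR_plus {m : ℕ} (hm : 5 ≤ m) (hι : Fintype.card ι = 2 * m) : ∀ v, (omG A).sg v → v ≠ 0 →
    ∀ W : Submodule F (ι → F), (∀ w ∈ W, A.Q w = 0) →
      2 * finrank F W = Fintype.card ι → Nat.card ((omG A).Q v) < Nat.card ((omG A).RR W) := by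
  intro v hv hv0 W hWs hrk
  have hWi : ∀ w ∈ W, ∀ x ∈ W, (omG A).h w x = 0 := fun w hw x hx => Quad.ts_polar hWs hw hx
  have hWs' : ∀ w ∈ W, (omG A).sg w := hWs
  have hrk' : finrank F W = m := by omega
  let b₀ := finBasisOfFinrankEq F W hrk'
  let b : Fin m → (ι → F) := fun i => (b₀ i : ι → F)
  have hb : LinearIndependent F b := b₀.linearIndependent.map' W.subtype (Submodule.ker_subtype W)
  have hbW : ∀ i, b i ∈ W := fun i => (b₀ i).2
  have hb0 : ∀ i, b i ≠ 0 := fun i => hb.ne_zero i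
  set J := Finset.univ.filter fun p : Fin m × Fin m => p.1 < p.2 with hJ
  have h1 := PolG.card_RR (P := omG A) hWi hbW hb J (fun p hp => le_of_lt (Finset.mem_filter.mp hp).2) (by
    intro p hp c
    have hpp : p.1 ≠ p.2 := ne_of_lt (Finset.mem_filter.mp hp).2
    obtain ⟨s, hs, h3⟩ := PolG.exRR_pair (P := omG A) hWs' hWi (hbW p.1) (hbW p.2) (hb0 p.1) (by
      intro d hd
      obtain ⟨y, hy⟩ := (omG A).dual_surj hb (Pi.single p.1 1)
      have e1 : (omG A).h (b p.1) y = 1 := by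
        have := congrFun hy p.1
        rwa [Pi.single_eq_same] at this
      have e2 : (omG A).h (b p.2) y = 0 := by
        have := congrFun hy p.2
        rwa [Pi.single_eq_of_ne (Ne.symm hpp)] at this
      rw [hd, (omG A).h_smul_left, e2, mul_zero] at e1
      exact zero_ne_one e1) c
    refine ⟨s, hs, fun x => ?_⟩
    rw [h3, if_neg hpp])
  have h3 := PolG.card_Q_le' (P := omG A) hv hv0 (hX1 hv hv0)
  have hJc := card_lt m
  rw [← hJ] at hJc
  have hq : 2 ≤ Nat.card F := Finite.one_lt_card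
  have hV : Nat.card (ι → F) = Nat.card F ^ (2 * m) := by
    rw [Nat.card_fun, Nat.card_eq_fintype_card (α := ι), hι]
  have h4 : Nat.card ((omG A).Q v) * Nat.card F ^ 2 ≤ Nat.card F ^ (2 * m - 2) * Nat.card F ^ 2 := by
    rw [← pow_add, show 2 * m - 2 + 2 = 2 * m by omega, ← hV]
    exact h3
  have h5 := Nat.le_of_mul_le_mul_right h4 (by positivity)
  have h6 : 2 * m - 2 < J.card := by
    clear_value J
    obtain ⟨j, rfl⟩ : ∃ j, m = j + 5 := ⟨m - 5, by omega⟩
    have : 2 * J.card = j * j + 9 * j + 20 := by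
      rw [hJc, show j + 5 - 1 = j + 4 by omega]; ring
    have h7 : 0 ≤ j * j := Nat.zero_le _
    omega
  exact lt_of_le_of_lt h5 (lt_of_lt_of_le (Nat.pow_lt_pow_right (by omega) h6) h1)

/-- the odd-dimensional case. -/
theorem hR_odd (hι : Odd (Fintype.card ι)) : ∀ v, (omG A).sg v → v ≠ 0 →
    ∀ W : Submodule F (ι → F), (∀ w ∈ W, A.Q w = 0) →
      2 * finrank F W = Fintype.card ι → Nat.card ((omG A).Q v) < Nat.card ((omG A).RR W) := by
  intro v _ _ W _ h
  rw [← h] at hι
  exact absurd hι (by simp)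

/-- the minus case. -/
theorem hR_minus {m : ℕ} (hmin : Quad.IsMinus A.Q m) : ∀ v, (omG A).sg v → v ≠ 0 →
    ∀ W : Submodule F (ι → F), (∀ w ∈ W, A.Q w = 0) →
      2 * finrank F W = Fintype.card ι → Nat.card ((omG A).Q v) < Nat.card ((omG A).RR W) := by
  intro v _ _ W hW h
  have h1 := hmin.ts_le A.nd hW
  have h2 := hmin.1
  rw [finV] at h2
  omega

/-- the good types. -/
def Good (A : OD ι F) : Prop := ∀ v, (omG A).sg v → v ≠ 0 →
    ∀ W : Submodule F (ι → F), (∀ w ∈ W, A.Q w = 0) →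
      2 * finrank F W = Fintype.card ι → Nat.card ((omG A).Q v) < Nat.card ((omG A).RR W)

/-- every automorphism is induced by a semisimilarity. -/
theorem final (hA : Good A) (α : MulAut (Cfsg.POmega F ⇑A.Q)) :
    ∃ (M : GL ι F) (σ : F ≃+* F) (k : F), k ≠ 0 ∧
      (∀ x, A.Q ((M : Matrix ι ι F) *ᵥ (fun i => σ (x i))) = k * σ (A.Q x)) ∧
      ∀ s s' : Cfsg.Omega F ⇑A.Q, (QuotientGroup.mk s' : Cfsg.POmega F ⇑A.Q) = α (QuotientGroup.mk s) →
        ∃ c : F, c ≠ 0 ∧ ∀ x, mt s' *ᵥ ((M : Matrix ι ι F) *ᵥ (fun i => σ (x i))) =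
          c • ((M : Matrix ι ι F) *ᵥ (fun i => σ ((mt s *ᵥ x) i))) := by
  obtain ⟨M, σ, k, hk, h1, h2, h3⟩ := PolT.final (P := omT A) (α := α) rich hne hN
    (fun e f he hf hef a ha => Or.inl (by
      have hs' : A.Q (f + a • e) = 0 := ha
      have hf' : A.Q f = 0 := hf
      have he' : A.Q e = 0 := he
      have hef' : polar A.Q e f = 1 := hef
      rw [Quad.map_add, Quad.map_smul, hf', he', Quad.polar_smul_right, Quad.polar_symm A.Q f e, hef'] at hs'
      linear_combination hs')) hE (fun v hv hv0 => hrel hA α v hv hv0)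
    (fun v hv hv0 => hrel hA α⁻¹ v hv hv0) exists_sg
  refine ⟨M, σ, k, hk, ?_, h3⟩
  set γ : (ι → F) → (ι → F) := fun x => (M : Matrix ι ι F) *ᵥ (fun i => σ (x i)) with hγ
  have hadd : ∀ x y, γ (x + y) = γ x + γ y := by
    intro x y
    have : (fun i => σ ((x + y) i)) = (fun i => σ (x i)) + fun i => σ (y i) := by
      funext i; exact map_add _ _ _
    simp only [hγ, this, mulVec_add]
  have hsmul : ∀ (a : F) x, γ (a • x) = σ a • γ x := by
    intro a b
    have : (fun i => σ ((a • b) i)) = σ a • fun i => σ (b i) := by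
      funext i; exact map_mul _ _ _
    simp only [hγ, this, mulVec_smul]
  have hpol : ∀ x y, polar A.Q (γ x) (γ y) = k * σ (polar A.Q x y) := h1
  have hsg : ∀ x, A.Q x = 0 → A.Q (γ x) = 0 := h2
  intro x
  change A.Q (γ x) = _
  induction span_top (A := A) x using Submodule.span_induction with
  | mem y hy =>
    have hy' : A.Q y = 0 := hy
    rw [hsg y hy', hy', map_zero, mul_zero]
  | zero =>
    have h0 : γ 0 = 0 := by
      have := hsmul 0 0
      rwa [zero_smul, map_zero, zero_smul] at this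
    rw [h0, QuadraticMap.map_zero, map_zero, mul_zero]
  | add x y _ _ hx hy =>
    rw [hadd, Quad.map_add, Quad.map_add, hx, hy, hpol, map_add, map_add]
    ring
  | smul a x _ hx =>
    rw [hsmul, Quad.map_smul, Quad.map_smul, hx, map_mul, map_mul]
    ring

end Cfsg.Agent.H16.POm
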