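import Cfsg.Agent.H16_POm2
import Cfsg.Agent.H16_GamT
import Cfsg.Agent.H16_PSp2

set_option autoImplicit false

/-! Orthogonal groups: the semisimilarity group. -/

namespace Cfsg.Agent.H16.POm

open Matrix Cfsg.Agent.H16.Ps Module Cfsg.Agent.H16.Gam Cfsg.Agent.H16.AutL Cfsg.Agent.H16.AutG Cfsg.Agent.H16.Desc
open QuadraticMap (polar)
open Cfsg.Agent.H16

variable {ι : Type} [Fintype ι] [DecidableEq ι] {F : Type*} [Field F]

theorem map_mulVec' (σ : F ≃+* F) (g : GL ι F) (v : ι → F) :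
    ((gσ σ g : GL ι F) : Matrix ι ι F) *ᵥ (fun i => σ (v i)) =
      fun i => σ (((g : Matrix ι ι F) *ᵥ v) i) := by
  funext i
  rw [gσ_coe]
  simp only [Matrix.mulVec, dotProduct, map_sum, map_mul, Matrix.map_apply]

theorem exists_map (σ : F ≃+* F) (u : ι → F) : ∃ x : ι → F, u = fun i => σ (x i) :=
  ⟨fun i => σ.symm (u i), funext fun i => (σ.apply_symm_apply _).symm⟩

/-- the semisimilarity group. -/
def GamO (Q : (ι → F) → F) : Subgroup (Gm ι F) where
  carrier := {x | Cfsg.IsSemisimilarityPair Q x.left x.right}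
  one_mem' := by
    refine ⟨1, fun v => ?_⟩
    rw [SemidirectProduct.one_left, SemidirectProduct.one_right, Units.val_one, one_mulVec, Units.val_one, one_mul]
    rfl
  mul_mem' := by
    rintro x y ⟨c, hc⟩ ⟨d, hd⟩
    refine ⟨c * Units.map (x.right : F →* F) d, fun v => ?_⟩
    rw [SemidirectProduct.mul_left, SemidirectProduct.mul_right]
    have h1 : ((x.left * (gsH x.right) y.left : GL ι F) : Matrix ι ι F) *ᵥ (fun i => (x.right * y.right) (v i)) =
        (x.left : Matrix ι ι F) *ᵥ (fun i => x.right (((y.left : Matrix ι ι F) *ᵥ (fun i => y.right (v i))) i)) := by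
      rw [PSp.coe_mul_mulVec, gsH_apply]
      congr 1
      exact map_mulVec' x.right y.left (fun i => y.right (v i))
    rw [h1, hc, hd, map_mul, Units.val_mul, mul_assoc]
    rfl
  inv_mem' := by
    rintro x ⟨c, hc⟩
    refine ⟨(Units.map (x.right.symm : F →* F) c)⁻¹, fun v => ?_⟩
    rw [SemidirectProduct.inv_left, SemidirectProduct.inv_right]
    set w := ((gsH x.right⁻¹ (x.left⁻¹) : GL ι F) : Matrix ι ι F) *ᵥ (fun i => x.right⁻¹ (v i)) with hw
    have h1 : (x.left : Matrix ι ι F) *ᵥ (fun i => x.right (w i)) = v := by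
      have h2 : w = fun i => x.right⁻¹ ((((x.left⁻¹ : GL ι F) : Matrix ι ι F) *ᵥ v) i) := by
        rw [hw, gsH_apply]
        exact map_mulVec' x.right⁻¹ x.left⁻¹ v
      have h3 : (fun i => x.right (w i)) = ((x.left⁻¹ : GL ι F) : Matrix ι ι F) *ᵥ v := by
        rw [h2]
        funext i
        exact x.right.apply_symm_apply _
      rw [h3, ← PSp.coe_mul_mulVec, mul_inv_cancel, Units.val_one, one_mulVec]
    have h4 := hc w
    rw [h1] at h4
    change Q w = _ * x.right.symm (Q v)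
    rw [h4, map_mul, RingEquiv.symm_apply_apply, ← mul_assoc]
    have h5 : (((Units.map (x.right.symm : F →* F) c)⁻¹ : Fˣ) : F) * x.right.symm (c : F) = 1 := by
      have h6 : x.right.symm (c : F) = ((Units.map (x.right.symm : F →* F) c : Fˣ) : F) := rfl
      rw [h6, ← Units.val_mul, inv_mul_cancel, Units.val_one]
    rw [h5, one_mul]

/-- the isometry group as a subgroup of `GL` is normalized. -/
theorem act_iso {Q : (ι → F) → F} {x : Gm ι F} (hx : x ∈ GamO Q) {g : GL ι F} (hg : g ∈ Cfsg.isometryGroup F Q) :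
    act x g ∈ Cfsg.isometryGroup F Q := by
  obtain ⟨c, hc⟩ := hx
  rw [Quad.mem_isometryGroup]
  intro v
  rw [act_apply]
  set w := ((x.left⁻¹ : GL ι F) : Matrix ι ι F) *ᵥ v with hw
  obtain ⟨y, hy⟩ := exists_map x.right w
  have h1 : v = (x.left : Matrix ι ι F) *ᵥ (fun i => x.right (y i)) := by
    rw [← hy, hw, ← PSp.coe_mul_mulVec, mul_inv_cancel, Units.val_one, one_mulVec]
  have h2 : ((x.left * gσ x.right g * x.left⁻¹ : GL ι F) : Matrix ι ι F).mulVec v =
      (x.left : Matrix ι ι F) *ᵥ (fun i => x.right (((g : Matrix ι ι F) *ᵥ y) i)) := by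
    rw [PSp.coe_mul_mulVec, PSp.coe_mul_mulVec, ← hw, hy, map_mulVec']
  rw [h2, hc, Quad.mem_isometryGroup.mp hg, h1, hc]

/-- `Ω` as a subgroup of `GL`. -/
def OmL (Q : (ι → F) → F) : Subgroup (GL ι F) := (Cfsg.Omega F Q).map (Cfsg.isometryGroup F Q).subtype

theorem OmL_eq (Q : (ι → F) → F) : OmL Q = ⁅Cfsg.isometryGroup F Q, Cfsg.isometryGroup F Q⁆ :=
  Subgroup.map_subtype_commutator _

theorem act_OmL {Q : (ι → F) → F} {x : Gm ι F} (hx : x ∈ GamO Q) {g : GL ι F} (hg : g ∈ OmL Q) : act x g ∈ OmL Q := by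
  rw [OmL_eq] at hg ⊢
  have h1 : (Cfsg.isometryGroup F Q).map (act x).toMonoidHom ≤ Cfsg.isometryGroup F Q := by
    rintro _ ⟨y, hy, rfl⟩
    exact act_iso hx hy
  have h2 : act x g ∈ (⁅Cfsg.isometryGroup F Q, Cfsg.isometryGroup F Q⁆).map (act x).toMonoidHom := ⟨g, hg, rfl⟩
  rw [Subgroup.map_commutator] at h2
  exact Subgroup.commutator_mono h1 h1 h2

/-- `Ω → GL`. -/
def toG (Q : (ι → F) → F) : Cfsg.Omega F Q →* GL ι F := (Cfsg.isometryGroup F Q).subtype.comp (Cfsg.Omega F Q).subtype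

theorem toG_inj {Q : (ι → F) → F} : Function.Injective (toG Q) :=
  Subtype.val_injective.comp Subtype.val_injective

theorem toG_coe {Q : (ι → F) → F} (s : Cfsg.Omega F Q) : ((toG Q s : GL ι F) : Matrix ι ι F) = mt s := rfl

theorem mem_OmL {Q : (ι → F) → F} {g : GL ι F} : g ∈ OmL Q ↔ ∃ s, toG Q s = g := by
  constructor
  · rintro ⟨s, hs, rfl⟩
    exact ⟨⟨s, hs⟩, rfl⟩
  · rintro ⟨s, rfl⟩
    exact ⟨s.1, s.2, rfl⟩

theorem iso_mem_Gam {Q : (ι → F) → F} {g : GL ι F} (hg : g ∈ Cfsg.isometryGroup F Q) :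
    (SemidirectProduct.inl g : Gm ι F) ∈ GamO Q := by
  refine ⟨1, fun v => ?_⟩
  rw [SemidirectProduct.left_inl, SemidirectProduct.right_inl, Units.val_one, one_mul]
  exact Quad.mem_isometryGroup.mp hg v

theorem sim_mem_Gam {Q : (ι → F) → F} {g : GL ι F} : (SemidirectProduct.inl g : Gm ι F) ∈ GamO Q ↔
    g ∈ Cfsg.Geo.quadSimilarityGroup (F := F) Q := by
  constructor
  · rintro ⟨c, hc⟩
    refine ⟨c, fun v => ?_⟩
    have := hc v
    rw [SemidirectProduct.left_inl, SemidirectProduct.right_inl] at this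
    exact this
  · rintro ⟨c, hc⟩
    refine ⟨c, fun v => ?_⟩
    rw [SemidirectProduct.left_inl, SemidirectProduct.right_inl]
    exact hc v

theorem scl_sim (Q : QuadraticForm F (ι → F)) (c : Fˣ) : scl ι c ∈ Cfsg.Geo.quadSimilarityGroup (F := F) ⇑Q := by
  refine ⟨c * c, fun v => ?_⟩
  rw [PSp.scl_mulVec, Quad.map_smul, Units.val_mul]

variable [Finite F]

/-- the family. -/
noncomputable def fam (A : OD ι F) : Fam (Cfsg.Omega F ⇑A.Q) ι F where
  ρ := toG ⇑A.Q
  inj := toG_inj
  Γ := GamO ⇑A.Q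
  hΓ x hx s := mem_OmL.mp (act_OmL hx (mem_OmL.mpr ⟨s, rfl⟩))
  inn s := iso_mem_Gam s.1.2
  sc c := sim_mem_Gam.mpr (scl_sim A.Q c)
  ker := by
    rintro x hx h
    obtain ⟨e, he, he0⟩ := exists_sg (A := A)
    obtain ⟨f, hf, hef⟩ := (omG A).exists_opp he he0
    have h1d := (omG A).finrank_perp he hf hef
    rw [finV] at h1d
    have h7 := A.h7
    obtain ⟨u₀, hu₀, -, hu00⟩ := hne (A := A) e f he hf hef
    have h1 := (omG A).ker_lemma (σ := x.right) (γ := fun v => (x.left : Matrix ι ι F) *ᵥ (fun i => x.right (v i)))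
      (PolG.big_of_rich rich) he hf hef ⟨u₀, hu₀, hu00⟩ (by
        intro c
        by_cases hc : c = 0
        · refine ⟨0, ((omG A).perp e f).zero_mem, ?_⟩
          rw [hc, zero_smul, add_zero, add_zero]
          exact hf
        · obtain ⟨u, hu⟩ := Quad.exists_norm (sub_quP A.nd he hf hef) (by
            change 2 ≤ finrank F ((omG A).perp e f)
            omega) (neg_ne_zero.mpr hc)
          refine ⟨u, u.2, ?_⟩
          have hu' : A.Q (u : ι → F) = -c := hu
          have e1 : polar A.Q e (u : ι → F) = 0 := u.2.1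
          have e2 : polar A.Q f (u : ι → F) = 0 := u.2.2
          have e3 : A.Q e = 0 := he
          have e4 : A.Q f = 0 := hf
          have e5 : polar A.Q e f = 1 := hef
          change A.Q _ = 0
          rw [Quad.map_add, Quad.map_add, Quad.map_smul, QuadraticMap.polar_add_left, Quad.polar_smul_right,
            Quad.polar_smul_right, e2, Quad.polar_symm A.Q f e, Quad.polar_symm A.Q (u : ι → F) e, e1, e3, e4, e5, hu']
          ring)
      (by
        intro a b
        have : (fun i => x.right ((a + b) i)) = (fun i => x.right (a i)) + fun i => x.right (b i) := by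
          funext i; exact map_add _ _ _
        simp only [this, mulVec_add])
      (by
        intro a b
        have : (fun i => x.right ((a • b) i)) = x.right a • fun i => x.right (b i) := by
          funext i; exact map_mul _ _ _
        simp only [this, mulVec_smul])
      (by
        intro v hv
        have h2 := congrArg (fun w => ((x.left⁻¹ : GL ι F) : Matrix ι ι F) *ᵥ w) hv
        simp only [← PSp.coe_mul_mulVec, inv_mul_cancel, Units.val_one, one_mulVec, mulVec_zero] at h2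
        funext i
        have h3 := congrFun h2 i
        exact (map_eq_zero x.right).mp h3)
      (by
        intro s
        obtain ⟨c, hc⟩ := h s
        refine ⟨c, fun v => ?_⟩
        have h2 : x.left * gσ x.right (toG ⇑A.Q s) = scl _ c * toG ⇑A.Q s * x.left := by
          rw [← hc, act_apply, inv_mul_cancel_right]
        have h3 := congrArg (fun g : GL ι F => (g : Matrix ι ι F) *ᵥ (fun i => x.right (v i))) h2
        simp only [PSp.coe_mul_mulVec, map_mulVec', PSp.scl_mulVec] at h3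
        exact h3)
    obtain ⟨h2, l, hl, h3⟩ := h1
    refine ⟨Units.mk0 l hl, ?_⟩
    apply SemidirectProduct.ext
    · rw [SemidirectProduct.left_inl]
      apply PSp.gl_ext
      intro v
      rw [PSp.scl_mulVec]
      have h4 := h3 v
      rw [h2] at h4
      exact h4
    · exact h2
  cen s := by
    rw [(omG A).center_iff rich span_top exists_sg]
    constructor
    · rintro ⟨c, hc⟩
      have hc0 : c ≠ 0 := by
        rintro rfl
        obtain ⟨e, he, he0⟩ := exists_sg (A := A)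
        have := hc e
        rw [zero_smul] at this
        exact (omG A).r_ne_zero s he0 this
      refine ⟨Units.mk0 c hc0, PSp.gl_ext fun v => ?_⟩
      rw [PSp.scl_mulVec]
      exact hc v
    · rintro ⟨c, hc⟩
      refine ⟨c, fun v => ?_⟩
      have h1 := congrArg (fun g : GL ι F => (g : Matrix ι ι F) *ᵥ v) hc
      simp only [PSp.scl_mulVec] at h1
      exact h1

theorem full {A : OD ι F} (hA : Good A) : (fam A).Full := by
  intro α
  obtain ⟨M, σ, k, hk0, hMk, h⟩ := final hA α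
  let x : (fam A).Γ := ⟨⟨M, σ⟩, ⟨Units.mk0 k hk0, hMk⟩⟩
  refine ⟨x, ?_⟩
  ext1 s
  induction s using QuotientGroup.induction_on with
  | H s =>
    obtain ⟨s', hs'⟩ := QuotientGroup.mk_surjective (α (QuotientGroup.mk s))
    obtain ⟨c, hc, h1⟩ := h s s' hs'
    rw [Fam.T_mk, ← hs', (fam A).mk_eq_iff]
    refine ⟨Units.mk0 c hc, ?_⟩
    rw [rho_tr, act_apply]
    change toG ⇑A.Q s' = scl _ (Units.mk0 c hc) * (M * gσ σ (toG ⇑A.Q s) * M⁻¹)
    rw [← mul_assoc, eq_mul_inv_iff_mul_eq]
    apply PSp.gl_ext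
    intro v
    obtain ⟨x, rfl⟩ := exists_map σ v
    rw [PSp.coe_mul_mulVec, PSp.coe_mul_mulVec, PSp.coe_mul_mulVec, map_mulVec', PSp.scl_mulVec]
    exact h1 x

/-- translation of the predicate. -/
theorem induced_iff (A : OD ι F) {g : GL ι F} {σ : F ≃+* F} (hg : (⟨g, σ⟩ : Gm ι F) ∈ GamO ⇑A.Q)
    {β : MulAut (Cfsg.POmega F ⇑A.Q)} : Cfsg.IsInducedBySemilinearPOmega ⇑A.Q g σ β ↔
      β = (fam A).T ⟨⟨g, σ⟩, hg⟩ := by
  have key : ∀ s s' : Cfsg.Omega F ⇑A.Q, mt s' =
        (g : Matrix ι ι F) * (mt s).map σ * ((g⁻¹ : GL ι F) : Matrix ι ι F) ↔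
      s' = tr (fam A).ρ (fam A).inj (fam A).Γ (fam A).hΓ ⟨⟨g, σ⟩, hg⟩ s := by
    intro s s'
    constructor
    · intro h
      apply (fam A).inj
      rw [rho_tr, act_apply]
      apply Units.ext
      exact h
    · intro h
      rw [h]
      have h1 := rho_tr (fam A).ρ (fam A).inj (fam A).Γ (fam A).hΓ ⟨⟨g, σ⟩, hg⟩ s
      exact congrArg (fun g : GL ι F => (g : Matrix ι ι F)) h1
  constructor
  · intro h
    ext1 s
    induction s using QuotientGroup.induction_on with
    | H s => exact h s _ ((key s _).mpr rfl)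
  · rintro rfl s s' h
    rw [Fam.T_mk, ← (key s s').mp h]

theorem gamma_eq {A : OD ι F} (hA : Good A) : Cfsg.gammaPOmega F ⇑A.Q = ⊤ := by
  rw [eq_top_iff]
  rintro α -
  obtain ⟨⟨⟨g, σ⟩, hg⟩, rfl⟩ := full hA α
  exact Subgroup.subset_closure ⟨g, σ, hg, (induced_iff A hg).mpr rfl⟩

end Cfsg.Agent.H16.POm
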