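import Cfsg.Agent.H16_POm3
import Cfsg.Agent.H16_Quad6

set_option autoImplicit false

/-! The standard orthogonal groups. -/

namespace Cfsg.Agent.H16.POm

open Matrix Cfsg.Agent.H16.Ps Module Cfsg.Agent.H16.Gam
open QuadraticMap (polar)
open Cfsg.Agent.H16

variable {F : Type*} [Field F]

theorem two_ne_of_odd [Fintype F] (hodd : Odd (Fintype.card F)) : (2 : F) ≠ 0 :=
  Quad.two_ne_zero_of_odd_card rfl hodd

/-- the odd-dimensional form. -/
noncomputable def odO {m : ℕ} (F : Type*) [Field F] (h2 : (2 : F) ≠ 0) (hm : 3 ≤ m) : OD (Unit ⊕ (Fin m ⊕ Fin m)) F where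
  Q := Quad.oddQ F m
  nd := Quad.nd_oddQ h2 m
  h7 := by simp only [Fintype.card_sum, Fintype.card_unit, Fintype.card_fin]; omega

/-- the plus form. -/
noncomputable def odP {m : ℕ} (F : Type*) [Field F] (hm : 4 ≤ m) : OD (Fin m ⊕ Fin m) F where
  Q := Quad.plusQ F m
  nd := Quad.nd_plusQ m
  h7 := by simp only [Fintype.card_sum, Fintype.card_fin]; omega

/-- the minus form. -/
noncomputable def odM {m : ℕ} [Finite F] {a b : F}
    (hab : ∀ z₁ z₂ : F, z₁ ^ 2 + a * z₁ * z₂ + b * z₂ ^ 2 = 0 → z₁ = 0 ∧ z₂ = 0) (hm : 3 ≤ m) :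
    OD ((Fin m ⊕ Fin m) ⊕ Fin 2) F where
  Q := Quad.minusQ F m a b
  nd := Quad.nd_minusQ m hab
  h7 := by simp only [Fintype.card_sum, Fintype.card_fin]; omega

variable [Finite F]

theorem good_odd {m : ℕ} (h2 : (2 : F) ≠ 0) (hm : 3 ≤ m) : Good (odO F h2 hm) :=
  hR_odd (A := odO F h2 hm) (by
    simp only [Fintype.card_sum, Fintype.card_unit, Fintype.card_fin]
    exact ⟨m, by ring⟩)

theorem good_plus {m : ℕ} (hm : 5 ≤ m) : Good (odP F (show 4 ≤ m by omega)) :=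
  hR_plus (A := odP F (show 4 ≤ m by omega)) hm (by
    simp only [Fintype.card_sum, Fintype.card_fin]; ring)

theorem good_minus {m : ℕ} {a b : F}
    (hab : ∀ z₁ z₂ : F, z₁ ^ 2 + a * z₁ * z₂ + b * z₂ ^ 2 = 0 → z₁ = 0 ∧ z₂ = 0) (hm : 3 ≤ m) : Good (odM hab hm) :=
  hR_minus (A := odM hab hm) (Quad.minusQ_isMinus m hab)

end Cfsg.Agent.H16.POm
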