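import Cfsg.Agent.H16_PSU6

set_option autoImplicit false

/-! The unitary family: characters, class splitting, centralizers. -/

namespace Cfsg.Agent.H16.Gam

open Matrix Cfsg.Agent.H16.AutG Cfsg.Agent.H16.AutL Cfsg.Agent.H16.Desc

/-- the coset theorem for a single field automorphism. -/
theorem Fam.coset_iff' {S : Type*} [Group S] {ι : Type*} [Fintype ι] [DecidableEq ι] {F : Type*} [Field F] {Φ : Fam S ι F}
    [Finite F] [Nonempty ι] (hf : Φ.HasField) (hD : Φ.D.Normal)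
    {x δ α : MulAut (S ⧸ Subgroup.center S)} {σ : F ≃+* F} (hL : Lang Φ σ)
    (hα : α * x * α⁻¹ = Φ.T (fin hf σ)) {r : ℕ} (hr : 0 < r) (hxr : orderOf x = r) (hδ : δ ∈ Φ.D) :
    orderOf (δ * x) = r ↔ Cfsg.IsConjUnder Φ.D x (δ * x) := by
  constructor
  · intro hr'
    have hδr : (δ * x) ^ r = 1 := by rw [← hr', pow_orderOf_eq_one]
    have hσr : orderOf σ = r := by rw [← orderOf_fin hf σ, ← hα, orderOf_conj', hxr]
    obtain ⟨η, hη, h⟩ := conj_transfer hD hα hδ (fun δ' hδ' h =>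
      conj_of_pow hf hL (by rw [hσr]; exact hr) hδ' (by rw [hσr]; exact h)) hδr
    exact ⟨η, hη, h⟩
  · rintro ⟨η, hη, h⟩
    rw [h, orderOf_conj', hxr]

/-- projective quotients of groups differing by scalars. -/
theorem projQuot_equiv {ι : Type} [Fintype ι] [DecidableEq ι] {F : Type*} [Field F] {N₁ N₀ : Subgroup (GL ι F)}
    (h1 : N₁ ≤ N₀) (h : ∀ g ∈ N₀, ∃ (d : Fˣ) (u : GL ι F), u ∈ N₁ ∧ g = scl ι d * u) :
    Nonempty (Cfsg.projQuot N₀ ≃* Cfsg.projQuot N₁) := by
  let f : N₁ →* Cfsg.projQuot N₀ := (QuotientGroup.mk' _).comp (Subgroup.inclusion h1)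
  have hfs : Function.Surjective f := by
    intro x
    induction x using QuotientGroup.induction_on with
    | H g =>
      obtain ⟨g, hg⟩ := g
      obtain ⟨d, u, hu, rfl⟩ := h g hg
      refine ⟨⟨u, hu⟩, ?_⟩
      change (QuotientGroup.mk _ : Cfsg.projQuot N₀) = QuotientGroup.mk _
      rw [QuotientGroup.eq, Subgroup.mem_subgroupOf, mem_scalars]
      refine ⟨d, ?_⟩
      change u⁻¹ * (scl ι d * u) = _
      rw [sc_comm, inv_mul_cancel_left]
  have hfk : f.ker = (Cfsg.Geo.scalars ι F).subgroupOf N₁ := by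
    ext g
    rw [MonoidHom.mem_ker]
    change (QuotientGroup.mk _ : Cfsg.projQuot N₀) = 1 ↔ _
    rw [QuotientGroup.eq_one_iff, Subgroup.mem_subgroupOf, Subgroup.mem_subgroupOf]
    rfl
  exact ⟨((QuotientGroup.quotientMulEquivOfEq hfk.symm).trans
    (QuotientGroup.quotientKerEquivOfSurjective f hfs)).symm⟩

end Cfsg.Agent.H16.Gam

namespace Cfsg.Agent.H16.PSU

open Matrix Cfsg.Agent.H5 Cfsg.Agent.H5.Unit Cfsg.Agent.H5.Frm Cfsg.Agent.H5.Conc Cfsg.Agent.H16.Ps Cfsg.Agent.H16.Gam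
  Cfsg.Agent.H16.AutL Cfsg.Agent.H16.AutG Cfsg.Agent.H16.Desc Module

variable {F : Type*} [Field F] [Fintype F] {q n : ℕ}

/-- `GU` acting on `PSU`. -/
noncomputable def fU (hF : Fintype.card F = q ^ 2) (hn : 3 ≤ n) : Cfsg.GU n F q →* MulAut (Cfsg.PSU n F q) :=
  ((fam hF hn).T.comp (fam hF hn).nin).comp (Subgroup.inclusion (show Cfsg.GU n F q ≤ (fam hF hn).N from GU_le_CGU))

theorem fU_range (hF : Fintype.card F = q ^ 2) (hn : 3 ≤ n) : (fU hF hn).range = (fam hF hn).D := by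
  ext β
  rw [mem_D_iff hF hn]
  constructor
  · rintro ⟨⟨g, hg⟩, rfl⟩
    exact ⟨g, hg, rfl⟩
  · rintro ⟨g, hg, rfl⟩
    exact ⟨⟨g, hg⟩, rfl⟩

theorem fU_ker (hF : Fintype.card F = q ^ 2) (hn : 3 ≤ n) (g : Cfsg.GU n F q) : g ∈ (fU hF hn).ker ↔
    ∃ c : Fˣ, (g : GL (Fin n) F) = scl (Fin n) c :=
  (fam hF hn).ker_nin _

/-- the group of norm one elements. -/
abbrev Cn (F : Type*) [Field F] (q : ℕ) : Subgroup Fˣ := (powMonoidHom (q + 1) : Fˣ →* Fˣ).ker

theorem mem_Cn {c : Fˣ} : c ∈ Cn F q ↔ (c : F) ^ (q + 1) = 1 := by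
  rw [MonoidHom.mem_ker, powMonoidHom_apply]
  constructor
  · intro h
    have := congrArg Units.val h
    rwa [Units.val_pow_eq_pow_val, Units.val_one] at this
  · intro h
    apply Units.ext
    rwa [Units.val_pow_eq_pow_val, Units.val_one]

theorem scl_mem_GU (hF : Fintype.card F = q ^ 2) (hn : 1 ≤ n) {c : Fˣ} : scl (Fin n) c ∈ Cfsg.GU n F q ↔ c ∈ Cn F q := by
  have : Nonempty (Fin n) := ⟨⟨0, by omega⟩⟩
  rw [mem_GU_git hF, gσ_sc, git_scl, mem_Cn]
  constructor
  · intro h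
    have h1 := congrArg Units.val (sc_inj h)
    change bt hF (c : F) = ((c⁻¹ : Fˣ) : F) at h1
    rw [bt_apply, Units.val_inv_eq_inv_val] at h1
    rw [pow_succ, h1, inv_mul_cancel₀ c.ne_zero]
  · intro h
    congr 1
    apply Units.ext
    change bt hF (c : F) = ((c⁻¹ : Fˣ) : F)
    rw [bt_apply, Units.val_inv_eq_inv_val]
    exact eq_inv_of_mul_eq_one_left (by rw [← pow_succ]; exact h)

theorem det_scl (c : Fˣ) : Matrix.GeneralLinearGroup.det (scl (Fin n) c) = c ^ n := by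
  apply Units.ext
  change (Matrix.scalar (Fin n) (c : F)).det = _
  rw [Matrix.scalar_apply, Matrix.det_diagonal, Finset.prod_const, Finset.card_univ, Fintype.card_fin,
    Units.val_pow_eq_pow_val]

theorem ker_map_det (hF : Fintype.card F = q ^ 2) (hn : 3 ≤ n) :
    (fU hF hn).ker.map (detGU n F hF) = (powMonoidHom n : Cn F q →* Cn F q).range := by
  apply le_antisymm
  · rintro _ ⟨⟨g, hg⟩, hgk, rfl⟩
    obtain ⟨c, hc⟩ := (fU_ker hF hn _).mp hgk
    change g = _ at hc
    subst hc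
    have hcn := (scl_mem_GU hF (by omega)).mp hg
    refine ⟨⟨c, hcn⟩, ?_⟩
    apply Subtype.ext
    change c ^ n = _
    exact (det_scl c).symm
  · rintro _ ⟨⟨c, hc⟩, rfl⟩
    refine ⟨⟨scl (Fin n) c, (scl_mem_GU hF (by omega)).mpr hc⟩, (fU_ker hF hn _).mpr ⟨c, rfl⟩, ?_⟩
    apply Subtype.ext
    exact det_scl c

theorem det_inn (hF : Fintype.card F = q ^ 2) (hn : 3 ≤ n) (g : Cfsg.GU n F q) (h : detGU n F hF g = 1) :
    fU hF hn g ∈ Cfsg.Inn (Cfsg.PSU n F q) := by
  have h1 : Matrix.GeneralLinearGroup.det (g : GL (Fin n) F) = 1 := congrArg Subtype.val h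
  obtain ⟨s, hs⟩ := exists_toG g.2 h1
  refine ⟨QuotientGroup.mk s, ?_⟩
  have h2 := (fam hF hn).T_inc s
  refine h2.symm.trans ?_
  change (fam hF hn).T ((fam hF hn).inc s) = (fam hF hn).T _
  congr 1
  apply Subtype.ext
  change SemidirectProduct.inl (toG n F q s) = SemidirectProduct.inl (g : GL (Fin n) F)
  rw [hs]

theorem inn_det (hF : Fintype.card F = q ^ 2) (hn : 3 ≤ n) : ∀ k ∈ Cfsg.Inn (Cfsg.PSU n F q),
    ∃ g, fU hF hn g = k ∧ detGU n F hF g = 1 := by
  rintro _ ⟨s, rfl⟩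
  induction s using QuotientGroup.induction_on with
  | H s =>
    refine ⟨⟨toG n F q s, toG_mem s⟩, (fam hF hn).T_inc s, ?_⟩
    apply Subtype.ext
    exact toG_det s

instance inn_normal : (Cfsg.Inn (Cfsg.PSU n F q)).Normal := inferInstance

theorem card_Cn (hF : Fintype.card F = q ^ 2) : Nat.card (Cn F q) = q + 1 := Fld.card_norm_ker hF

/-- the quotient `D / Inn`. -/
theorem D_quot (hF : Fintype.card F = q ^ 2) (hn : 3 ≤ n) :
    IsCyclic ((fam hF hn).D.map (QuotientGroup.mk' (Cfsg.Inn (Cfsg.PSU n F q)))) ∧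
      Nat.card ((fam hF hn).D.map (QuotientGroup.mk' (Cfsg.Inn (Cfsg.PSU n F q)))) = Nat.gcd n (q + 1) := by
  obtain ⟨ψ, h1, h2, -⟩ := GamT.quot_gen (D := (fam hF hn).D) (K := Cfsg.Inn (Cfsg.PSU n F q)) inferInstance (fU hF hn)
    (fU_range hF hn) (detGU n F hF) (detGU_surjective hF (by omega)) (det_inn hF hn) (inn_det hF hn)
  have hfin : Finite (Cn F q) := inferInstance
  rw [ker_map_det hF hn] at h2
  constructor
  · rw [← h1]
    exact isCyclic_of_surjective ψ.rangeRestrict ψ.rangeRestrict_surjective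
  · rw [← h1]
    have h3 : Nat.card ψ.ker * Nat.card ψ.range = Nat.card (Cn F q) := by
      rw [← Subgroup.index_ker, Subgroup.card_mul_index]
    rw [h2, IsCyclic.card_powMonoidHom_range, card_Cn hF] at h3
    have h4 : Nat.gcd (q + 1) n ∣ q + 1 := Nat.gcd_dvd_left _ _
    obtain ⟨k, hk⟩ := h4
    have h5 : 0 < Nat.gcd (q + 1) n := Nat.gcd_pos_of_pos_left _ (by omega)
    have h6 : (q + 1) / Nat.gcd (q + 1) n = k := Nat.div_eq_of_eq_mul_right h5 hk
    rw [h6] at h3
    have h7 : 0 < k := by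
      rcases Nat.eq_zero_or_pos k with rfl | h
      · omega
      · exact h
    have h8 : k * Nat.card ψ.range = k * Nat.gcd (q + 1) n := by rw [h3, mul_comm k]; exact hk
    rw [Nat.eq_of_mul_eq_mul_left h7 h8, Nat.gcd_comm]

/-- the order of `D`. -/
theorem card_D (hF : Fintype.card F = q ^ 2) (hn : 3 ≤ n) :
    Nat.card (fam hF hn).D = Nat.gcd n (q + 1) * Nat.card (Cfsg.PSU n F q) := by
  have h1 : Nat.card (fU hF hn).ker = q + 1 := by
    rw [← card_Cn hF]
    symm
    refine Nat.card_congr (Equiv.ofBijective (fun c : Cn F q => (⟨⟨scl (Fin n) (c : Fˣ),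
      (scl_mem_GU hF (by omega)).mpr c.2⟩, (fU_ker hF hn _).mpr ⟨c, rfl⟩⟩ : (fU hF hn).ker)) ⟨?_, ?_⟩)
    · intro c d h
      have : Nonempty (Fin n) := ⟨⟨0, by omega⟩⟩
      have h2 : scl (Fin n) (c : Fˣ) = scl (Fin n) (d : Fˣ) := congrArg (fun z : (fU hF hn).ker => ((z : Cfsg.GU n F q) : GL (Fin n) F)) h
      exact Subtype.ext (sc_inj h2)
    · rintro ⟨⟨g, hg⟩, hgk⟩
      obtain ⟨c, hc⟩ := (fU_ker hF hn _).mp hgk
      change g = _ at hc
      subst hc
      exact ⟨⟨c, (scl_mem_GU hF (by omega)).mp hg⟩, rfl⟩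
  have h2 : Nat.card (fU hF hn).ker * Nat.card (fU hF hn).range = Nat.card (Cfsg.GU n F q) := by
    rw [← Subgroup.index_ker, Subgroup.card_mul_index]
  rw [h1, fU_range hF hn, ← card_SU_mul hF (show 1 ≤ n by omega)] at h2
  have h3 := Nat.eq_of_mul_eq_mul_left (by omega) h2
  rw [h3, ← card_center_SU hF (show 2 ≤ n by omega)]
  have h4 := Subgroup.card_eq_card_quotient_mul_card_subgroup (Subgroup.center (Cfsg.SU n F q))
  rw [h4, mul_comm]

theorem aut_finite (hF : Fintype.card F = q ^ 2) (hn : 3 ≤ n) : Finite (MulAut (Cfsg.PSU n F q)) := inferInstance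

/-- the centralizer of a field automorphism of odd order. -/
theorem cent_fieldU (hF : Fintype.card F = q ^ 2) (hn : 3 ≤ n) {σ : F ≃+* F} {q₀ : ℕ} (hq0 : 2 ≤ q₀)
    (hcard : q = q₀ ^ orderOf σ) (hfix : Nat.card {x : F // σ x = x} = q₀ ^ 2)
    (hpw : ∀ x : F, σ x = x → x ^ q = x ^ q₀)
    (F₀ : Type*) [Field F₀] [Fintype F₀] (hF₀ : Fintype.card F₀ = q₀ ^ 2) :
    Nonempty (↥((fam hF hn).D ⊓ Subgroup.centralizer {(fam hF hn).T (Fam.fin (fam_hasField hF hn) σ)}) ≃*
      Cfsg.PGU n F₀ q₀) := by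
  obtain ⟨e, he⟩ := exists_emb (σ := σ) (q₀ := q₀ ^ 2) (by
    rw [Nat.card_eq_fintype_card, hF, hcard, ← pow_mul, ← pow_mul, mul_comm]) hfix F₀ hF₀
  have hnt : Nonempty (Fin n) := ⟨⟨0, by omega⟩⟩
  have hef : ∀ x : F₀, σ (e x) = e x := fun x => (he _).mpr ⟨x, rfl⟩
  have hbe : ∀ x : F₀, bt hF (e x) = e (bt hF₀ x) := by
    intro x
    rw [bt_apply, bt_apply, hpw _ (hef x), map_pow]
  have hcomm : ∀ g : GL (Fin n) F₀, gσ (bt hF) (Matrix.GeneralLinearGroup.map e g) =
      Matrix.GeneralLinearGroup.map e (gσ (bt hF₀) g) := by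
    intro g
    apply Units.ext
    ext i j
    exact hbe _
  have hgit : ∀ g : GL (Fin n) F₀, git (Matrix.GeneralLinearGroup.map e g) =
      Matrix.GeneralLinearGroup.map e (git g) := by
    intro g
    apply Units.ext
    ext i j
    rfl
  have hinj : Function.Injective (Matrix.GeneralLinearGroup.map (n := Fin n) e) := by
    intro g h hgh
    apply Units.ext
    ext i j
    apply e.injective
    exact congrArg (fun x : GL (Fin n) F => (x : Matrix (Fin n) (Fin n) F) i j) hgh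
  have hscl : ∀ c : F₀ˣ, Matrix.GeneralLinearGroup.map e (scl (Fin n) c) = scl (Fin n) (Units.map (e : F₀ →* F) c) := by
    intro c
    apply Units.ext
    ext i j
    change e ((Matrix.scalar (Fin n) (c : F₀)) i j) = (Matrix.scalar (Fin n) (e (c : F₀))) i j
    rw [Matrix.scalar_apply, Matrix.scalar_apply, Matrix.diagonal_apply, Matrix.diagonal_apply]
    split_ifs <;> simp
  obtain ⟨E⟩ := (fam hF hn).cent_field (fam_hasField hF hn) (orderOf_pos σ) he (CGU n F₀ q₀) (by
    intro g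
    rw [mem_CGU_git hF₀ (show 1 ≤ n by omega)]
    refine Iff.trans ?_ (mem_CGU_git hF (show 1 ≤ n by omega)).symm
    constructor
    · rintro ⟨c, hc⟩
      refine ⟨Units.map (e : F₀ →* F) c, ?_⟩
      rw [hcomm, hc, _root_.map_mul, hgit, hscl]
    · rintro ⟨c, hc⟩
      have h1 : Matrix.GeneralLinearGroup.map e (gσ (bt hF₀) g * (git g)⁻¹) = scl (Fin n) c := by
        rw [_root_.map_mul, ← hcomm, hc, _root_.map_inv, hgit, mul_inv_cancel_right]
      obtain ⟨d, hd⟩ := (map_scl_iff e _).mp ⟨c, h1⟩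
      exact ⟨d, by rw [← hd, inv_mul_cancel_right]⟩)
  obtain ⟨E'⟩ := projQuot_equiv (N₁ := Cfsg.GU n F₀ q₀) (N₀ := CGU n F₀ q₀) GU_le_CGU
    (fun g hg => exists_sc_GU hF₀ (show 1 ≤ n by omega) hg)
  exact ⟨E.trans E'⟩

/-- the splitting of the class of a field automorphism of odd order. -/
theorem split_fieldU (hF : Fintype.card F = q ^ 2) (hn : 3 ≤ n) {σ : F ≃+* F} {q₀ : ℕ} (hq0 : 2 ≤ q₀)
    (ho : Odd (orderOf σ)) (hcard : q = q₀ ^ orderOf σ) (hfix : Nat.card {x : F // σ x = x} = q₀ ^ 2)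
    (hpw : ∀ x : F, σ x = x → x ^ q = x ^ q₀) :
    Cfsg.splitClassCount (fam hF hn).D (Cfsg.Inn (Cfsg.PSU n F q))
      ((fam hF hn).T (Fam.fin (fam_hasField hF hn) σ)) = Nat.gcd n ((q + 1) / (q₀ + 1)) := by
  have hnt : Nonempty (Fin n) := ⟨⟨0, by omega⟩⟩
  have hr0 : 0 < orderOf σ := ho.pos
  have h1 := GamT.split_gen (D := (fam hF hn).D) (K := Cfsg.Inn (Cfsg.PSU n F q)) inferInstance (fam hF hn).inn_le_D (fU hF hn)
    (fU_range hF hn) (detGU n F hF) (detGU_surjective hF (by omega)) (det_inn hF hn) (inn_det hF hn)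
    ((fam hF hn).T (Fam.fin (fam_hasField hF hn) σ))
  rw [ker_map_det hF hn] at h1
  -- the fixed field
  let K : Subfield F := RingHom.eqLocusField (σ : F →+* F) (RingHom.id F)
  have hKfin : Fintype K := Fintype.ofFinite K
  have hKc : Fintype.card K = q₀ ^ 2 := by
    rw [← hfix, ← Nat.card_eq_fintype_card]
    exact Nat.card_congr (Equiv.subtypeEquivRight fun x => Iff.rfl)
  -- norm one elements fixed by `σ`
  let C₀ : Subgroup (Cn F q) := (FixU σ).subgroupOf (Cn F q)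
  have hC₀ : ∀ c : Cn F q, c ∈ C₀ ↔ σ ((c : Fˣ) : F) = (c : Fˣ) := fun c => Iff.rfl
  have hC₀c : Nat.card C₀ = q₀ + 1 := by
    rw [← card_Cn hKc]
    symm
    refine Nat.card_congr (Equiv.ofBijective (fun c : Cn K q₀ => (⟨⟨Units.map (K.subtype : K →* F) (c : Kˣ), ?_⟩, ?_⟩ : C₀)) ⟨?_, ?_⟩)
    · rw [mem_Cn]
      have h2 := mem_Cn.mp c.2
      have h3 := congrArg (fun z : K => (z : F)) h2
      change (((c : Kˣ) : K) : F) ^ (q + 1) = 1
      rw [pow_succ, hpw _ ((c : Kˣ) : K).2, ← pow_succ]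
      exact h3
    · exact ((c : Kˣ) : K).2
    · intro c d h
      apply Subtype.ext
      apply Units.ext
      apply Subtype.ext
      exact congrArg (fun z : C₀ => (((z : Cn F q) : Fˣ) : F)) h
    · rintro ⟨⟨c, hc⟩, hc2⟩
      have hc3 : σ (c : F) = c := hc2
      have hc0 : (⟨(c : F), hc3⟩ : K) ≠ 0 := fun h => c.ne_zero (congrArg Subtype.val h)
      refine ⟨⟨Units.mk0 ⟨(c : F), hc3⟩ hc0, ?_⟩, ?_⟩
      · rw [mem_Cn]
        apply Subtype.ext
        change (c : F) ^ (q₀ + 1) = 1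
        rw [pow_succ, ← hpw _ hc3, ← pow_succ]
        exact mem_Cn.mp hc
      · apply Subtype.ext
        apply Subtype.ext
        apply Units.ext
        rfl
  have hfin : Finite (Cn F q) := inferInstance
  have hdvd : q₀ + 1 ∣ q + 1 := by
    rw [← hC₀c, ← card_Cn hF]
    exact Subgroup.card_subgroup_dvd_card C₀
  have hC₀p : C₀ = (powMonoidHom ((q + 1) / (q₀ + 1)) : Cn F q →* Cn F q).range := by
    apply Split.eq_powers
    rw [hC₀c, card_Cn hF, Nat.mul_div_cancel' hdvd]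
  have h2 : ((Subgroup.centralizer {(fam hF hn).T (Fam.fin (fam_hasField hF hn) σ)}).comap (fU hF hn)).map (detGU n F hF) ⊔
      (powMonoidHom n : Cn F q →* Cn F q).range = (powMonoidHom n : Cn F q →* Cn F q).range ⊔ C₀ := by
    rw [sup_comm]
    apply le_antisymm
    · rw [sup_le_iff]
      refine ⟨le_sup_left, ?_⟩
      rintro _ ⟨⟨g, hg⟩, hgc, rfl⟩
      obtain ⟨c, hc⟩ := ((fam hF hn).comm_iff (fam_hasField hF hn) (g := ⟨g, GU_le_CGU hg⟩)).mp hgc
      obtain ⟨t, g₀, hgt, hg₀⟩ := exists_fixed_of_sc rfl hr0 hc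
      change g = _ at hgt
      -- the multiplier of `g₀`
      have hg₀N : g₀ ∈ CGU n F q := by
        have : g₀ = scl _ t⁻¹ * g := by rw [hgt, scl_scl, inv_mul_cancel, _root_.map_one, one_mul]
        rw [this]
        exact mul_mem (scal_mem hF _) (GU_le_CGU hg)
      obtain ⟨k, hk⟩ := (mem_CGU_git hF (by omega)).mp hg₀N
      have hkb := mult_bt hF (by omega) hk
      have hkσ : σ (k : F) = k := by
        have h3 := congrArg (gσ σ) hk
        rw [gσ_bt_comm, hg₀, _root_.map_mul, gσ_sc, gσ_git, hg₀, hk] at h3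
        exact (congrArg Units.val (scl_cancel h3)).symm
      have hk0 : (⟨(k : F), hkσ⟩ : K) ≠ 0 := fun h => k.ne_zero (congrArg Subtype.val h)
      obtain ⟨s, hs⟩ := Fld.exists_norm_eq hKc (⟨(k : F), hkσ⟩ : K) (by
        apply Subtype.ext
        change (k : F) ^ q₀ = k
        rw [← hpw _ hkσ, ← bt_apply hF]
        exact hkb)
      have hs0 : (s : F) ≠ 0 := by
        intro h
        have h4 : s = 0 := Subtype.ext h
        rw [h4, zero_pow (by omega)] at hs
        exact hk0 hs.symm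
      have hsσ : σ (s : F) = s := s.2
      have hsk : (s : F) ^ (q + 1) = k := by
        rw [pow_succ, hpw _ hsσ, ← pow_succ]
        exact congrArg Subtype.val hs
      set S : Fˣ := Units.mk0 (s : F) hs0 with hS
      have hg1 : scl (Fin n) S⁻¹ * g₀ ∈ Cfsg.GU n F q := by
        rw [mem_GU_git hF, _root_.map_mul, _root_.map_mul, hk, gσ_sc, git_scl, scl_scl, inv_inv]
        congr 2
        apply Units.ext
        rw [_root_.map_inv, Units.val_mul, Units.val_inv_eq_inv_val]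
        change (bt hF (s : F))⁻¹ * (k : F) = s
        have h5 : bt hF (s : F) ≠ 0 := by rw [Ne, map_eq_zero]; exact hs0
        rw [inv_mul_eq_iff_eq_mul₀ h5, bt_apply, ← hsk, pow_succ]
      have htS : t * S ∈ Cn F q := by
        rw [← scl_mem_GU hF (show 1 ≤ n by omega)]
        have h6 : scl (Fin n) (t * S) = g * (scl (Fin n) S⁻¹ * g₀)⁻¹ := by
          rw [hgt, _root_.mul_inv_rev, ← mul_assoc, mul_inv_cancel_right, ← _root_.map_inv, inv_inv, _root_.map_mul]
        rw [h6]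
        exact mul_mem hg (inv_mem hg1)
      have hdet : detGU n F hF ⟨g, hg⟩ = ⟨t * S, htS⟩ ^ n * detGU n F hF ⟨_, hg1⟩ := by
        apply Subtype.ext
        change Matrix.GeneralLinearGroup.det g = (t * S) ^ n * Matrix.GeneralLinearGroup.det (scl (Fin n) S⁻¹ * g₀)
        have h7 : g = scl (Fin n) (t * S) * (scl (Fin n) S⁻¹ * g₀) := by
          rw [scl_scl, mul_inv_cancel_right, hgt]
        conv_lhs => rw [h7, _root_.map_mul, det_scl]
      rw [hdet]
      refine mul_mem (Subgroup.mem_sup_left ⟨_, rfl⟩) (Subgroup.mem_sup_right ?_)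
      rw [hC₀]
      have h8 : gσ σ (scl (Fin n) S⁻¹ * g₀) = scl (Fin n) S⁻¹ * g₀ := by
        rw [_root_.map_mul, gσ_sc, hg₀]
        congr 2
        rw [_root_.map_inv]
        congr 1
        exact Units.ext hsσ
      change σ ((scl (Fin n) S⁻¹ * g₀ : GL (Fin n) F) : Matrix (Fin n) (Fin n) F).det =
        ((scl (Fin n) S⁻¹ * g₀ : GL (Fin n) F) : Matrix (Fin n) (Fin n) F).det
      have h9 := (σ : F →+* F).map_det ((scl (Fin n) S⁻¹ * g₀ : GL (Fin n) F) : Matrix (Fin n) (Fin n) F)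
      refine h9.trans ?_
      have h10 := congrArg (fun g : GL (Fin n) F => (g : Matrix (Fin n) (Fin n) F).det) h8
      exact h10
    · rw [sup_le_iff]
      refine ⟨le_sup_left, ?_⟩
      intro d hd
      rw [hC₀] at hd
      apply Subgroup.mem_sup_right
      -- diagonal matrix
      have hne0 : NeZero n := ⟨by omega⟩
      let ε : Fin n → Fˣ := fun i => if i = 0 then (d : Fˣ) else 1
      have hdet : (Matrix.diagonal (fun i => (ε i : F))).det = ((d : Fˣ) : F) := by
        rw [Matrix.det_diagonal, Finset.prod_eq_single (0 : Fin n)]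
        · simp [ε]
        · intro i _ hi
          simp [ε, hi]
        · simp
      have hne : (Matrix.diagonal (fun i => (ε i : F))).det ≠ 0 := by
        rw [hdet]; exact (d : Fˣ).ne_zero
      have hg : Matrix.GeneralLinearGroup.mkOfDetNeZero _ hne ∈ Cfsg.GU n F q := by
        apply diag_mem_GU hF ε _ _ rfl
        intro i
        by_cases hi : i = 0
        · have := mem_Cn.mp d.2
          simp [ε, hi, this]
        · simp [ε, hi]
      refine ⟨⟨Matrix.GeneralLinearGroup.mkOfDetNeZero _ hne, hg⟩, ?_, ?_⟩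
      · refine ((fam hF hn).comm_iff (fam_hasField hF hn) (g := ⟨_, GU_le_CGU hg⟩)).mpr ⟨1, ?_⟩
        rw [_root_.map_one, one_mul]
        apply Units.ext
        change (Matrix.diagonal (fun i => (ε i : F))).map σ = Matrix.diagonal (fun i => (ε i : F))
        rw [Matrix.diagonal_map (map_zero σ)]
        congr 1
        funext i
        change σ (ε i : F) = ε i
        by_cases hi : i = 0
        · simp [ε, hi, hd]
        · simp [ε, hi]
      · apply Subtype.ext
        apply Units.ext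
        exact hdet
  rw [h1, h2, hC₀p, Split.powers_sup, IsCyclic.index_powMonoidHom_range, card_Cn hF, Nat.gcd_comm]
  exact Nat.gcd_eq_left ((Nat.gcd_dvd_right _ _).trans (Nat.div_dvd_of_dvd hdvd))

end Cfsg.Agent.H16.PSU
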