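import Cfsg.Agent.H16_POm4
import Cfsg.Agent.H16_PSU7

set_option autoImplicit false

/-! Descent of quadratic forms along a field automorphism. -/

namespace Cfsg.Agent.H16.POm

open Matrix Cfsg.Agent.H16.Ps Module Cfsg.Agent.H16.Gam Cfsg.Agent.H16.AutL Cfsg.Agent.H16.AutG Cfsg.Agent.H16.Desc
open QuadraticMap (polar)
open Cfsg.Agent.H16

variable {ι : Type} [Fintype ι] [DecidableEq ι] {F : Type*} [Field F]

theorem coe_single {K : Type*} [Field K] (e : K →+* F) (i : ι) :
    (fun j => e ((Pi.single i 1 : ι → K) j)) = (Pi.single i 1 : ι → F) := by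
  funext j
  by_cases h : j = i
  · subst h; simp
  · simp [Pi.single_apply, h]

/-- quadratic forms agreeing on rational vectors. -/
theorem ext_rat {K : Type*} [Field K] (e : K →+* F) {Q₁ Q₂ : QuadraticForm F (ι → F)}
    (h : ∀ x : ι → K, Q₁ (fun i => e (x i)) = Q₂ (fun i => e (x i))) (v : ι → F) : Q₁ v = Q₂ v := by
  have h1 : ∀ i, Q₁ (Pi.single i 1) = Q₂ (Pi.single i 1) := fun i => by
    rw [← coe_single e i]; exact h _
  have h2 : ∀ i j, polar Q₁ (Pi.single i 1) (Pi.single j 1) = polar Q₂ (Pi.single i 1) (Pi.single j 1) := by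
    intro i j
    rw [polar, polar, h1, h1]
    congr 2
    have := h (Pi.single i 1 + Pi.single j 1)
    have e1 : (fun k => e ((Pi.single i 1 + Pi.single j 1 : ι → K) k)) =
        (Pi.single i 1 : ι → F) + Pi.single j 1 := by
      rw [← coe_single e i, ← coe_single e j]
      funext k
      simp
    rwa [e1] at this
  have := Quad.isom_of_basis (Q := Q₁) (Q' := Q₂) (Pi.basisFun F ι) LinearMap.id
    (fun i => by rw [LinearMap.id_apply, Pi.basisFun_apply]; exact (h1 i).symm)
    (fun i j => by simp only [LinearMap.id_apply, Pi.basisFun_apply]; exact (h2 i j).symm) v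
  exact this.symm

/-- the multiplier of the norm. -/
theorem mult_Nn {Q : (ι → F) → F} {g : GL ι F} {σ : F ≃+* F} {c : Fˣ}
    (hc : ∀ v : ι → F, Q ((g : Matrix ι ι F) *ᵥ (fun i => σ (v i))) = (c : F) * σ (Q v)) (j : ℕ) (v : ι → F) :
    Q (((Nn σ g j : GL ι F) : Matrix ι ι F) *ᵥ (fun i => (σ ^ j) (v i))) = ((nn σ c j : Fˣ) : F) * (σ ^ j) (Q v) := by
  induction j generalizing v with
  | zero =>
    rw [Nn_zero, Units.val_one, one_mulVec, nn, Units.val_one, one_mul]
    rfl
  | succ j ih =>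
    have e1 : (fun i => (σ ^ (j + 1)) (v i)) = fun i => σ ((σ ^ j) (v i)) := by
      funext i
      rw [pow_succ']
      rfl
    rw [Nn_succ, PSp.coe_mul_mulVec, e1, map_mulVec', hc, ih, map_mul, nn, Units.val_mul, mul_assoc, pow_succ']
    rfl

/-- the fixed field of an automorphism. -/
abbrev FixK (σ : F ≃+* F) : Subfield F := RingHom.eqLocusField (σ : F →+* F) (RingHom.id F)

theorem mem_FixK {σ : F ≃+* F} {x : F} : x ∈ FixK σ ↔ σ x = x := Iff.rfl

theorem exists_rep {K : Subfield F} (z : ι → F) : z = ∑ j, z j • (fun i => (((Pi.single j 1 : ι → K) i : K) : F)) := by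
  funext i
  have : ∀ j, (fun i => (((Pi.single j 1 : ι → K) i : K) : F)) = Pi.single j 1 := fun j => coe_single K.subtype j
  simp only [this]
  simp [Finset.sum_apply, Pi.single_apply]

/-- descent of quadratic forms. -/
theorem descend [Finite F] [Nonempty ι] {Q : QuadraticForm F (ι → F)} (hQ : (QuadraticMap.polarBilin Q).Nondegenerate)
    {g : GL ι F} {σ : F ≃+* F} {c : Fˣ}
    (hc : ∀ v : ι → F, Q ((g : Matrix ι ι F) *ᵥ (fun i => σ (v i))) = (c : F) * σ (Q v))
    (hg : Nn σ g (orderOf σ) = 1) :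
    ∃ (h : GL ι F) (l : Fˣ) (Q₀ : QuadraticForm (FixK σ) (ι → FixK σ)), g * gσ σ h = h ∧
      (∀ x : ι → FixK σ, ((Q₀ x : FixK σ) : F) = ((l⁻¹ : Fˣ) : F) * Q ((h : Matrix ι ι F) *ᵥ fun i => (x i : F))) ∧
      (QuadraticMap.polarBilin Q₀).Nondegenerate := by
  have hr0 : 0 < orderOf σ := by
    have := finite_ringAut (F := F)
    exact orderOf_pos σ
  obtain ⟨h, hh⟩ := hilbert90 σ rfl hr0 g hg
  have hc1 : nn σ c (orderOf σ) = 1 := by
    obtain ⟨v, hv⟩ := Quad.exists_nonsing hQ (by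
      rw [Module.finrank_fintype_fun_eq_card]; exact Fintype.card_pos)
    have h1 := mult_Nn hc (orderOf σ) v
    rw [hg, Units.val_one, one_mulVec, pow_orderOf_eq_one] at h1
    have h2 : Q v = ((nn σ c (orderOf σ) : Fˣ) : F) * Q v := h1
    exact Units.ext (mul_eq_right₀ hv |>.mp h2.symm)
  obtain ⟨l, hl⟩ := hilbert90_one σ rfl hr0 c hc1
  have hhx : ∀ x : ι → F, (h : Matrix ι ι F) *ᵥ (fun i => σ (x i)) =
      (g : Matrix ι ι F) *ᵥ (fun i => σ (((h : Matrix ι ι F) *ᵥ x) i)) := by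
    intro x
    rw [← map_mulVec', ← PSp.coe_mul_mulVec, hh]
  let q : (ι → F) → F := fun x => ((l⁻¹ : Fˣ) : F) * Q ((h : Matrix ι ι F) *ᵥ x)
  have hqσ : ∀ x : ι → F, q (fun i => σ (x i)) = σ (q x) := by
    intro x
    change ((l⁻¹ : Fˣ) : F) * _ = σ (((l⁻¹ : Fˣ) : F) * _)
    rw [hhx, hc, map_mul, ← mul_assoc]
    congr 1
    have hl0 : σ (l : F) ≠ 0 := by
      rw [Ne, map_eq_zero]; exact l.ne_zero
    rw [Units.val_inv_eq_inv_val, map_inv₀, eq_comm, inv_eq_of_mul_eq_one_right]
    rw [mul_comm, mul_assoc, hl, inv_mul_cancel₀ l.ne_zero]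
  have hKv : ∀ x : ι → FixK σ, (fun i => σ ((x i : FixK σ) : F)) = fun i => ((x i : FixK σ) : F) := fun x =>
    funext fun i => (x i).2
  let b : (ι → F) → (ι → F) → F := fun x y => ((l⁻¹ : Fˣ) : F) *
    polar Q ((h : Matrix ι ι F) *ᵥ x) ((h : Matrix ι ι F) *ᵥ y)
  have hqb : ∀ x y, b x y = q (x + y) - q x - q y := by
    intro x y
    change _ * (Q _ - Q _ - Q _) = _ * Q _ - _ * Q _ - _ * Q _
    rw [mulVec_add]
    ring
  have hbσ : ∀ x y : ι → F, b (fun i => σ (x i)) (fun i => σ (y i)) = σ (b x y) := by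
    intro x y
    rw [hqb, hqb, map_sub, map_sub, ← hqσ, ← hqσ, ← hqσ]
    congr 3
    funext i
    exact (map_add σ _ _).symm
  let B₀ : LinearMap.BilinForm (FixK σ) (ι → FixK σ) := LinearMap.mk₂ (FixK σ)
    (fun x y => (⟨b (fun i => (x i : F)) (fun i => (y i : F)), by
      rw [mem_FixK, ← hbσ, hKv, hKv]⟩ : FixK σ))
    (by
      intro x x' y
      apply Subtype.ext
      change b (fun i => ((x i + x' i : FixK σ) : F)) _ = b _ _ + b _ _
      have : (fun i => ((x i + x' i : FixK σ) : F)) = (fun i => (x i : F)) + fun i => (x' i : F) := rfl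
      simp only [b, this, mulVec_add, QuadraticMap.polar_add_left, mul_add])
    (by
      intro c x y
      apply Subtype.ext
      change b (fun i => ((c * x i : FixK σ) : F)) _ = (c : F) * b _ _
      have : (fun i => ((c * x i : FixK σ) : F)) = (c : F) • (fun i => (x i : F)) := rfl
      simp only [b, this, mulVec_smul, Quad.polar_smul_left]
      ring)
    (by
      intro x y y'
      apply Subtype.ext
      change b _ (fun i => ((y i + y' i : FixK σ) : F)) = b _ _ + b _ _
      have : (fun i => ((y i + y' i : FixK σ) : F)) = (fun i => (y i : F)) + fun i => (y' i : F) := rfl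
      simp only [b, this, mulVec_add, QuadraticMap.polar_add_right, mul_add])
    (by
      intro c x y
      apply Subtype.ext
      change b _ (fun i => ((c * y i : FixK σ) : F)) = (c : F) * b _ _
      have : (fun i => ((c * y i : FixK σ) : F)) = (c : F) • (fun i => (y i : F)) := rfl
      simp only [b, this, mulVec_smul, Quad.polar_smul_right]
      ring)
  let Q₀ : QuadraticForm (FixK σ) (ι → FixK σ) :=
    { toFun := fun x => (⟨q (fun i => (x i : F)), by rw [mem_FixK, ← hqσ, hKv]⟩ : FixK σ)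
      toFun_smul := by
        intro c x
        apply Subtype.ext
        change q (fun i => ((c * x i : FixK σ) : F)) = (c : F) * (c : F) * q _
        have : (fun i => ((c * x i : FixK σ) : F)) = (c : F) • (fun i => (x i : F)) := rfl
        simp only [q, this, mulVec_smul, Quad.map_smul]
        ring
      exists_companion' := ⟨B₀, by
        intro x y
        apply Subtype.ext
        change q ((fun i => (x i : F)) + fun i => (y i : F)) = q _ + q _ + b _ _
        rw [hqb]
        ring⟩ }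
  have hQ₀ : ∀ x : ι → FixK σ, ((Q₀ x : FixK σ) : F) = q (fun i => (x i : F)) := fun x => rfl
  have hp₀ : ∀ x y : ι → FixK σ, ((polar Q₀ x y : FixK σ) : F) = b (fun i => (x i : F)) (fun i => (y i : F)) := by
    intro x y
    rw [hqb]
    rfl
  refine ⟨h, l, Q₀, hh, hQ₀, ?_⟩
  apply Quad.nd_of
  intro x hx
  have h2 : (h : Matrix ι ι F) *ᵥ (fun i => ((x i : FixK σ) : F)) = 0 := by
    refine Quad.nd_eq_zero hQ fun y => ?_
    have h3 : ∀ z : ι → F, b (fun i => ((x i : FixK σ) : F)) z = 0 := by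
      intro z
      have hlin : ∀ (s : Finset ι) (f : ι → (ι → F)),
          b (fun i => ((x i : FixK σ) : F)) (∑ j ∈ s, f j) = ∑ j ∈ s, b (fun i => ((x i : FixK σ) : F)) (f j) := by
        intro s f
        induction s using Finset.induction_on with
        | empty => simp [b, QuadraticMap.polar_zero_right]
        | insert a s ha ih =>
          rw [Finset.sum_insert ha, Finset.sum_insert ha, ← ih]
          simp only [b, mulVec_add, QuadraticMap.polar_add_right, mul_add]
      rw [exists_rep (K := FixK σ) z, hlin]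
      apply Finset.sum_eq_zero
      intro j _
      have h5 := congrArg (fun t : FixK σ => (t : F)) (hx (Pi.single j 1))
      have h6 : b (fun i => ((x i : FixK σ) : F)) (z j • fun i => (((Pi.single j 1 : ι → FixK σ) i : FixK σ) : F)) =
          z j * b (fun i => ((x i : FixK σ) : F)) (fun i => (((Pi.single j 1 : ι → FixK σ) i : FixK σ) : F)) := by
        simp only [b, mulVec_smul, Quad.polar_smul_right]
        ring
      rw [h6, ← hp₀]
      simp only [ZeroMemClass.coe_zero] at h5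
      rw [h5, mul_zero]
    have h7 := h3 (((h⁻¹ : GL ι F) : Matrix ι ι F) *ᵥ y)
    change ((l⁻¹ : Fˣ) : F) * _ = 0 at h7
    rw [← PSp.coe_mul_mulVec, mul_inv_cancel, Units.val_one, one_mulVec] at h7
    exact (mul_eq_zero.mp h7).resolve_left (l⁻¹).ne_zero
  have h8 := congrArg (fun w => ((h⁻¹ : GL ι F) : Matrix ι ι F) *ᵥ w) h2
  simp only [← PSp.coe_mul_mulVec, inv_mul_cancel, Units.val_one, one_mulVec, mulVec_zero] at h8
  funext i
  exact Subtype.ext (congrFun h8 i)

theorem map_mulVec_coe {K : Type*} [Field K] (e : K →+* F) (g : GL ι K) (x : ι → K) :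
    ((Matrix.GeneralLinearGroup.map e g : GL ι F) : Matrix ι ι F) *ᵥ (fun i => e (x i)) =
      fun i => e (((g : Matrix ι ι K) *ᵥ x) i) := by
  funext i
  change ((g : Matrix ι ι K).map e *ᵥ _) i = _
  simp only [Matrix.mulVec, dotProduct, map_sum, map_mul, Matrix.map_apply]

/-- pull back of a quadratic form by a matrix. -/
theorem comp_gl (Q : QuadraticForm F (ι → F)) (g : GL ι F) (v : ι → F) :
    (Q.comp (Matrix.mulVecLin (g : Matrix ι ι F))) v = Q ((g : Matrix ι ι F) *ᵥ v) := rfl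

/-- the rational form of a semisimilarity. -/
theorem lang_std [Finite F] [Nonempty ι] {Q : QuadraticForm F (ι → F)} (hQ : (QuadraticMap.polarBilin Q).Nondegenerate)
    {g : GL ι F} {σ : F ≃+* F} {c : Fˣ}
    (hc : ∀ v : ι → F, Q ((g : Matrix ι ι F) *ᵥ (fun i => σ (v i))) = (c : F) * σ (Q v))
    (hg : Nn σ g (orderOf σ) = 1) {Q' : QuadraticForm F (ι → F)} (R : QuadraticForm (FixK σ) (ι → FixK σ))
    (hR : ∀ x : ι → FixK σ, Q' (fun i => (x i : F)) = ((R x : FixK σ) : F))
    (hcl : ∀ Q₀ : QuadraticForm (FixK σ) (ι → FixK σ), (QuadraticMap.polarBilin Q₀).Nondegenerate →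
      (∃ (h : GL ι F) (l : Fˣ), ∀ x : ι → FixK σ, ((Q₀ x : FixK σ) : F) = ((l⁻¹ : Fˣ) : F) *
        Q ((h : Matrix ι ι F) *ᵥ fun i => (x i : F))) →
      ∃ (g₀ : GL ι (FixK σ)) (d : (FixK σ)ˣ), ∀ x, Q₀ ((g₀ : Matrix ι ι (FixK σ)) *ᵥ x) = d * R x) :
    ∃ (y : GL ι F) (l : Fˣ), g * gσ σ y = y ∧ ∀ v, Q ((y : Matrix ι ι F) *ᵥ v) = (l : F) * Q' v := by
  obtain ⟨h, l, Q₀, hh, hQ₀, hnd⟩ := descend hQ hc hg
  obtain ⟨g₀, d, hd⟩ := hcl Q₀ hnd ⟨h, l, hQ₀⟩
  set G : GL ι F := Matrix.GeneralLinearGroup.map (FixK σ).subtype g₀ with hG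
  have hGσ : gσ σ G = G := by
    apply Units.ext
    ext i j
    exact ((g₀ : Matrix ι ι (FixK σ)) i j).2
  refine ⟨h * G, l * Units.map ((FixK σ).subtype : FixK σ →* F) d, ?_, ?_⟩
  · rw [_root_.map_mul, hGσ, ← mul_assoc, hh]
  · intro v
    have h1 := ext_rat (FixK σ).subtype (Q₁ := Q.comp (Matrix.mulVecLin ((h * G : GL ι F) : Matrix ι ι F)))
      (Q₂ := ((l : F) * ((d : FixK σ) : F)) • Q') (by
        intro x
        rw [comp_gl, PSp.coe_mul_mulVec, hG, map_mulVec_coe]
        have h2 := hQ₀ ((g₀ : Matrix ι ι (FixK σ)) *ᵥ x)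
        rw [hd] at h2
        change Q ((h : Matrix ι ι F) *ᵥ fun i => ((((g₀ : Matrix ι ι (FixK σ)) *ᵥ x) i : FixK σ) : F)) =
          (l : F) * ((d : FixK σ) : F) * Q' (fun i => (x i : F))
        rw [hR, mul_assoc]
        have h3 : (((d : FixK σ) * R x : FixK σ) : F) = ((d : FixK σ) : F) * ((R x : FixK σ) : F) := rfl
        rw [← h3, h2, ← mul_assoc, ← Units.val_mul, mul_inv_cancel, Units.val_one, one_mul]) v
    exact h1

end Cfsg.Agent.H16.POm
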