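import Cfsg.Agent.H16_POm5

set_option autoImplicit false

/-! Orthogonal groups of odd dimension. -/

namespace Cfsg.Agent.H16.POm

open Matrix Cfsg.Agent.H16.Ps Module Cfsg.Agent.H16.Gam Cfsg.Agent.H16.AutL Cfsg.Agent.H16.AutG Cfsg.Agent.H16.Desc
open QuadraticMap (polar)
open Cfsg.Agent.H16

section Rat

variable {ι : Type} [Fintype ι] [DecidableEq ι] {F K : Type*} [Field F] [Field K] (e : K →+* F)
  {Q : QuadraticForm F (ι → F)} {R : QuadraticForm K (ι → K)}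

theorem map_iso (hR : ∀ x : ι → K, Q (fun i => e (x i)) = e (R x)) (g : GL ι K) :
    Matrix.GeneralLinearGroup.map e g ∈ Cfsg.isometryGroup F ⇑Q ↔ g ∈ Cfsg.isometryGroup K ⇑R := by
  rw [Quad.mem_isometryGroup, Quad.mem_isometryGroup]
  constructor
  · intro h x
    apply e.injective
    have h1 : Q (((Matrix.GeneralLinearGroup.map e g : GL ι F) : Matrix ι ι F) *ᵥ fun i => e (x i)) = _ := h _
    rw [map_mulVec_coe, hR, hR] at h1
    exact h1
  · intro h v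
    refine ext_rat e (Q₁ := Q.comp (Matrix.mulVecLin ((Matrix.GeneralLinearGroup.map e g : GL ι F) : Matrix ι ι F)))
      (Q₂ := Q) (fun x => ?_) v
    rw [comp_gl, map_mulVec_coe, hR, hR]
    congr 1
    exact h x

theorem map_sim [Nonempty ι] (hR : ∀ x : ι → K, Q (fun i => e (x i)) = e (R x))
    (hnd : (QuadraticMap.polarBilin R).Nondegenerate) (g : GL ι K) :
    Matrix.GeneralLinearGroup.map e g ∈ Cfsg.Geo.quadSimilarityGroup (F := F) ⇑Q ↔
      g ∈ Cfsg.Geo.quadSimilarityGroup (F := K) ⇑R := by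
  constructor
  · rintro ⟨c, hc⟩
    obtain ⟨x, hx⟩ := Quad.exists_nonsing hnd (by
      rw [Module.finrank_fintype_fun_eq_card]; exact Fintype.card_pos)
    have hc' : ∀ y : ι → K, e (R ((g : Matrix ι ι K) *ᵥ y)) = (c : F) * e (R y) := by
      intro y
      have := hc (fun i => e (y i))
      rw [hR] at this
      rw [← this, ← hR, ← map_mulVec_coe]
    have hex : e (R x) ≠ 0 := by rw [Ne, map_eq_zero]; exact hx
    have hc0 : R ((g : Matrix ι ι K) *ᵥ x) / R x ≠ 0 := by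
      intro h0
      have h1 : R ((g : Matrix ι ι K) *ᵥ x) = 0 := by
        rcases div_eq_zero_iff.mp h0 with h | h
        · exact h
        · exact absurd h hx
      have h2 := hc' x
      rw [h1, map_zero] at h2
      exact mul_ne_zero c.ne_zero hex h2.symm
    refine ⟨Units.mk0 _ hc0, fun v => ?_⟩
    apply e.injective
    rw [Units.val_mk0, map_mul, map_div₀, hc' x, mul_div_assoc, div_self hex, mul_one]
    exact hc' v
  · rintro ⟨c, hc⟩
    refine ⟨Units.map (e : K →* F) c, fun v => ?_⟩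
    refine ext_rat e (Q₁ := Q.comp (Matrix.mulVecLin ((Matrix.GeneralLinearGroup.map e g : GL ι F) : Matrix ι ι F)))
      (Q₂ := (e (c : K)) • Q) (fun x => ?_) v
    rw [comp_gl, map_mulVec_coe, hR]
    change _ = e (c : K) * Q (fun i => e (x i))
    rw [hR, ← map_mul]
    congr 1
    exact hc x

theorem map_reflection (hR : ∀ x : ι → K, Q (fun i => e (x i)) = e (R x)) (v : ι → K) :
    (Cfsg.reflectionMatrix ⇑R v).map e = Cfsg.reflectionMatrix ⇑Q (fun i => e (v i)) := by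
  have h1 : ∀ i, Cfsg.polarVec Q (fun i => e (v i)) i = e (Cfsg.polarVec R v i) := by
    intro i
    rw [Cfsg.polarVec, Cfsg.polarVec, ← coe_single e i, polar, polar, map_sub, map_sub, ← hR, ← hR, ← hR]
    congr 3
    funext j
    simp
  ext i j
  rw [Matrix.map_apply, Cfsg.reflectionMatrix, Cfsg.reflectionMatrix]
  simp only [Matrix.sub_apply, Matrix.smul_apply, Matrix.vecMulVec_apply, smul_eq_mul, h1, hR, map_sub, map_mul,
    map_inv₀, Matrix.one_apply, apply_ite e, map_one, map_zero]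

theorem exists_rat_list [Finite K] (hR : ∀ x : ι → K, Q (fun i => e (x i)) = e (R x))
    (hnd : (QuadraticMap.polarBilin R).Nondegenerate)
    (hK : Nat.card K ≠ 2 ∨ finrank K (ι → K) ≠ 4) {g₀ : GL ι K} (hg₀ : g₀ ∈ Cfsg.isometryGroup K ⇑R) :
    ∃ vs : List (ι → K), (∀ v ∈ vs, R v ≠ 0) ∧
      Quad.toOG Q ⟨Matrix.GeneralLinearGroup.map e g₀, (map_iso e hR g₀).mpr hg₀⟩ =
        Quad.rpr Q (vs.map fun v i => e (v i)) := by
  obtain ⟨vs, h1, -, h3⟩ := Quad.iso_exists_list hnd hK ⟨g₀, hg₀⟩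
  refine ⟨vs, h1, ?_⟩
  apply Quad.toOG_rpr
  change ((g₀ : GL ι K) : Matrix ι ι K).map e = _
  change (g₀ : Matrix ι ι K) = _ at h3
  rw [h3, ← RingHom.mapMatrix_apply, map_list_prod, List.map_map, List.map_map]
  congr 1
  apply List.map_congr_left
  intro v _
  exact map_reflection e hR v

end Rat

variable {ι : Type} [Fintype ι] [DecidableEq ι] {F : Type*} [Field F] [Finite F]

/-- isometries acting. -/
noncomputable def fO (A : OD ι F) : Cfsg.isometryGroup F ⇑A.Q →* MulAut (Cfsg.POmega F ⇑A.Q) :=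
  ((fam A).T.comp (fam A).nin).comp (Subgroup.inclusion (fun _ hg => iso_mem_Gam hg))

theorem iso_le_N (A : OD ι F) : Cfsg.isometryGroup F ⇑A.Q ≤ (fam A).N := fun _ hg => iso_mem_Gam hg

theorem fO_apply (A : OD ι F) {g : GL ι F} (hg : g ∈ Cfsg.isometryGroup F ⇑A.Q) :
    fO A ⟨g, hg⟩ = (fam A).T ((fam A).nin ⟨g, iso_le_N A hg⟩) := rfl

theorem fO_ker (A : OD ι F) (g : Cfsg.isometryGroup F ⇑A.Q) : g ∈ (fO A).ker ↔
    ∃ c : Fˣ, (g : GL ι F) = scl ι c :=
  (fam A).ker_nin _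

theorem exists_ns (A : OD ι F) : ∃ v, A.Q v ≠ 0 := by
  have h7 := A.h7
  exact Quad.exists_nonsing A.nd (by rw [Module.finrank_fintype_fun_eq_card]; omega)

theorem nonempty (A : OD ι F) : Nonempty ι := by
  have h7 := A.h7
  exact Fintype.card_pos_iff.mp (by omega)

theorem scl_iso (A : OD ι F) {c : Fˣ} : scl ι c ∈ Cfsg.isometryGroup F ⇑A.Q ↔ c = 1 ∨ c = -1 := by
  rw [Quad.mem_isometryGroup]
  constructor
  · intro h
    obtain ⟨v, hv⟩ := exists_ns A
    have h1 := h v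
    change A.Q (((scl ι c : GL ι F) : Matrix ι ι F) *ᵥ v) = _ at h1
    rw [PSp.scl_mulVec, Quad.map_smul] at h1
    have h2 : (c : F) * c = 1 := mul_eq_right₀ hv |>.mp h1
    rcases mul_self_eq_one_iff.mp h2 with h3 | h3
    · left; exact Units.ext h3
    · right; exact Units.ext h3
  · rintro h v
    have hcc : (c : F) * c = 1 := by
      rcases h with rfl | rfl <;> simp
    change A.Q (((scl ι c : GL ι F) : Matrix ι ι F) *ᵥ v) = _
    rw [PSp.scl_mulVec, Quad.map_smul, hcc, one_mul]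

theorem fO_inn (A : OD ι F) {g : Cfsg.isometryGroup F ⇑A.Q} (hg : g ∈ Cfsg.Omega F ⇑A.Q) :
    fO A g ∈ Cfsg.Inn (Cfsg.POmega F ⇑A.Q) :=
  ⟨QuotientGroup.mk (⟨g, hg⟩ : Cfsg.Omega F ⇑A.Q), ((fam A).T_inc ⟨g, hg⟩).symm⟩

theorem inn_fO (A : OD ι F) : ∀ k ∈ Cfsg.Inn (Cfsg.POmega F ⇑A.Q), ∃ g ∈ Cfsg.Omega F ⇑A.Q, fO A g = k := by
  rintro _ ⟨s, rfl⟩
  induction s using QuotientGroup.induction_on with
  | H s => exact ⟨s.1, s.2, (fam A).T_inc s⟩

/-- the predicate for similarities. -/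
theorem sim_iff (A : OD ι F) {β : MulAut (Cfsg.POmega F ⇑A.Q)} :
    Cfsg.IsSimilarityInducedAutPOmega ⇑A.Q β ↔ β ∈ (fam A).D := by
  constructor
  · rintro ⟨g, hg, h⟩
    have hg' := sim_mem_Gam.mpr hg
    have h1 := (induced_iff A (g := g) (σ := RingEquiv.refl F) hg').mp h
    exact ⟨⟨g, hg'⟩, h1.symm⟩
  · rintro ⟨g, rfl⟩
    refine ⟨g, sim_mem_Gam.mp g.2, ?_⟩
    exact (induced_iff A (g := g) (σ := RingEquiv.refl F) g.2).mpr rfl

theorem closure_D (A : OD ι F) : Cfsg.pgoAut F ⇑A.Q = (fam A).D := by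
  have h : {β : MulAut (Cfsg.POmega F ⇑A.Q) | Cfsg.IsSimilarityInducedAutPOmega ⇑A.Q β} = (fam A).D := by
    ext β
    exact sim_iff A
  rw [Cfsg.pgoAut, Cfsg.autSubgroupOf, h, Subgroup.closure_eq]

section Odd

variable {A : OD ι F} (hodd : Odd (Fintype.card ι)) (h2 : (2 : F) ≠ 0)

omit [Finite F] in
include hodd in
/-- similarities in odd dimension. -/
theorem sim_odd {g : GL ι F} (hg : g ∈ Cfsg.Geo.quadSimilarityGroup (F := F) ⇑A.Q) :
    ∃ (d : Fˣ) (u : GL ι F), u ∈ Cfsg.isometryGroup F ⇑A.Q ∧ g = scl ι d * u := by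
  obtain ⟨c, hc⟩ := hg
  have hsq : IsSquare (c : F) := by
    set b := Pi.basisFun F ι with hb
    let L : (ι → F) ≃ₗ[F] (ι → F) := Quad.glE F ι g
    have hL : ∀ v, A.Q (L v) = c * A.Q v := hc
    obtain ⟨d, hd, h1⟩ := Quad.det_gram_basis A.Q (b.map L) b
    have h3 : Quad.gram A.Q (b.map L) = (c : F) • Quad.gram A.Q b := by
      ext i j
      simp only [Quad.gram, Matrix.of_apply, Basis.map_apply, Matrix.smul_apply, smul_eq_mul]
      rw [polar, polar, ← map_add, hL, hL, hL]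
      ring
    rw [h3, Matrix.det_smul] at h1
    have hne := Quad.det_gram_ne_zero A.nd b
    have h4 : (c : F) ^ Fintype.card ι = d * d := mul_right_cancel₀ hne h1
    obtain ⟨k, hk⟩ := hodd
    refine ⟨d / (c : F) ^ k, ?_⟩
    have hck : (c : F) ^ k ≠ 0 := pow_ne_zero _ c.ne_zero
    rw [div_mul_div_comm, eq_div_iff (mul_ne_zero hck hck), ← h4, hk, pow_succ, pow_mul]
    ring
  obtain ⟨d, hd⟩ := hsq
  have hd0 : d ≠ 0 := by
    rintro rfl
    rw [mul_zero] at hd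
    exact c.ne_zero hd
  refine ⟨Units.mk0 d hd0, scl ι (Units.mk0 d hd0)⁻¹ * g, ?_, ?_⟩
  · rw [Quad.mem_isometryGroup]
    intro v
    change A.Q (((scl ι (Units.mk0 d hd0)⁻¹ * g : GL ι F) : Matrix ι ι F) *ᵥ v) = _
    rw [PSp.coe_mul_mulVec, PSp.scl_mulVec, Quad.map_smul, hc, hd, Units.val_inv_eq_inv_val, Units.val_mk0]
    field_simp
  · rw [← mul_assoc, ← _root_.map_mul, mul_inv_cancel, _root_.map_one, one_mul]

include hodd in
theorem fO_range_odd : (fO A).range = (fam A).D := by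
  ext β
  constructor
  · rintro ⟨⟨g, hg⟩, rfl⟩
    exact ⟨⟨g, iso_le_N A hg⟩, rfl⟩
  · rintro ⟨g, rfl⟩
    obtain ⟨d, u, hu, hgu⟩ := sim_odd (A := A) hodd (sim_mem_Gam.mp g.2)
    refine ⟨⟨u, hu⟩, ?_⟩
    have h5 : g = ⟨scl ι d, (fam A).sc d⟩ * ⟨u, iso_le_N A hu⟩ := Subtype.ext hgu
    change _ = (fam A).T ((fam A).nin g)
    have h6 : (fam A).T ((fam A).nin ⟨scl ι d, (fam A).sc d⟩) = 1 := (Fam.ker_nin _).mpr ⟨d, rfl⟩
    rw [fO_apply, h5, _root_.map_mul, _root_.map_mul, h6, one_mul]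

/-- minus the identity. -/
def negO (A : OD ι F) : Cfsg.isometryGroup F ⇑A.Q := ⟨scl ι (-1), (scl_iso A).mpr (Or.inr rfl)⟩

include hodd h2 in
/-- the character in odd dimension. -/
theorem exists_chi_odd : ∃ (θ χ : Cfsg.isometryGroup F ⇑A.Q →* ℤˣ), Function.Surjective χ ∧
    (∀ g, χ g = 1 → fO A g ∈ Cfsg.Inn (Cfsg.POmega F ⇑A.Q)) ∧ (∀ g ∈ Cfsg.Omega F ⇑A.Q, χ g = 1) ∧
    (∀ g ∈ (fO A).ker, χ g = 1) ∧
    (∀ (g : Cfsg.isometryGroup F ⇑A.Q) (vs : List (ι → F)), (∀ v ∈ vs, A.Q v ≠ 0) → Quad.toOG A.Q g = Quad.rpr A.Q vs →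
      (θ g = 1 ↔ IsSquare (vs.map A.Q).prod)) ∧
    (∃ ε : ℕ, ∀ g : Cfsg.isometryGroup F ⇑A.Q, ∃ vs : List (ι → F), (∀ v ∈ vs, A.Q v ≠ 0) ∧
      Quad.toOG A.Q g = Quad.rpr A.Q vs ∧ χ g = θ g * (-1) ^ (ε * vs.length)) ∧
    (∀ (g : Cfsg.isometryGroup F ⇑A.Q) (vs : List (ι → F)), (∀ v ∈ vs, A.Q v ≠ 0) → Quad.toOG A.Q g = Quad.rpr A.Q vs →
      Even vs.length → χ g = θ g) ∧ (θ (negO A) = 1 → χ = θ) := by
  have h7 := A.h7
  obtain ⟨δ, θ, k1, k2, k3, k4, k5⟩ := Quad.iso_chars A.nd (Or.inl (Quad.card_ne_two_of h2))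
  obtain ⟨⟨v, hv, hv2⟩, w, hw, hw2⟩ := Quad.exists_both A.nd h2 (by
    rw [Module.finrank_fintype_fun_eq_card]; omega)
  have hdn : δ (negO A) = -1 := by
    have h3 := k3 (negO A)
    have h4 : (((negO A : Cfsg.isometryGroup F ⇑A.Q) : GL ι F) : Matrix ι ι F).det = -1 := by
      change (Matrix.scalar ι (((-1 : Fˣ)) : F)).det = _
      rw [Matrix.scalar_apply, Matrix.det_diagonal, Finset.prod_const, Finset.card_univ, Units.val_neg, Units.val_one,
        hodd.neg_one_pow]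
    rw [h4] at h3
    rcases Int.units_eq_one_or (δ (negO A)) with h | h
    · rw [h] at h3
      exfalso
      apply h2
      have : (-1 : F) = 1 := by simpa using h3
      linear_combination -this
    · exact h
  obtain ⟨ε, hε⟩ : ∃ ε : ℕ, θ (negO A) * (-1) ^ ε = 1 ∧ (θ (negO A) = 1 → ε = 0) := by
    rcases Int.units_eq_one_or (θ (negO A)) with h | h
    · exact ⟨0, by rw [h]; rfl, fun _ => rfl⟩
    · exact ⟨1, by rw [h]; rfl, fun h' => by rw [h] at h'; exact absurd h' (by decide)⟩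
  let χ : Cfsg.isometryGroup F ⇑A.Q →* ℤˣ := θ * δ ^ ε
  have hχ : ∀ g, χ g = θ g * δ g ^ ε := fun g => rfl
  have hχn : χ (negO A) = 1 := by rw [hχ, hdn]; exact hε.1
  have hnk : negO A ∈ (fO A).ker := (fO_ker A _).mpr ⟨_, rfl⟩
  refine ⟨θ, χ, ?_, ?_, ?_, ?_, ?_, ⟨ε, ?_⟩, ?_, ?_⟩
  · -- surjective
    obtain ⟨r, hr⟩ := Quad.iso_exists_refl (Q := A.Q) v
    obtain ⟨s, hs⟩ := Quad.iso_exists_refl (Q := A.Q) w
    obtain ⟨r1, r2⟩ := k1 r v hv hr
    obtain ⟨s1, s2⟩ := k1 s w hw hs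
    have r3 : θ r = 1 := r2.2 hv2
    have s3 : θ s = -1 := by
      rcases Int.units_eq_one_or (θ s) with h | h
      · exact absurd (s2.1 h) hw2
      · exact h
    intro a
    rcases Int.units_eq_one_or a with rfl | rfl
    · exact ⟨1, map_one _⟩
    · refine ⟨r * s, ?_⟩
      rw [hχ, _root_.map_mul, _root_.map_mul, r1, s1, r3, s3]
      simp
  · intro g hg
    rcases Int.units_eq_one_or (δ g) with h | h
    · apply fO_inn
      rw [k2]
      refine ⟨h, ?_⟩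
      rwa [hχ, h, one_pow, mul_one] at hg
    · have h6 : fO A g = fO A (negO A * g) := by
        rw [_root_.map_mul, MonoidHom.mem_ker.mp hnk, one_mul]
      rw [h6]
      apply fO_inn
      rw [k2]
      have h8 : δ (negO A * g) = 1 := by rw [_root_.map_mul, hdn, h]; rfl
      refine ⟨h8, ?_⟩
      have h9 : χ (negO A * g) = 1 := by rw [_root_.map_mul, hχn, hg, one_mul]
      rwa [hχ, h8, one_pow, mul_one] at h9
  · intro g hg
    obtain ⟨a1, a2⟩ := (k2 g).mp hg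
    rw [hχ, a1, a2, one_pow, one_mul]
  · rintro ⟨g, hg⟩ hgk
    obtain ⟨c, hc⟩ := (fO_ker A _).mp hgk
    change g = _ at hc
    subst hc
    rcases (scl_iso A).mp hg with rfl | rfl
    · have : (⟨scl ι 1, hg⟩ : Cfsg.isometryGroup F ⇑A.Q) = 1 := Subtype.ext (_root_.map_one _)
      rw [this, _root_.map_one]
    · exact hχn
  · intro g vs hvs hg
    exact (k4 g vs hvs hg).2
  · intro g
    obtain ⟨vs, e1, e2, -⟩ := Quad.iso_exists_list A.nd (Or.inl (Quad.card_ne_two_of h2)) g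
    refine ⟨vs, e1, e2, ?_⟩
    rw [hχ, (k4 g vs e1 e2).1, ← pow_mul, mul_comm ε]
  · intro g vs hvs hg hev
    rw [hχ, (k4 g vs hvs hg).1, hev.neg_one_pow, one_pow, mul_one]
  · intro h
    ext1 g
    rw [hχ, hε.2 h, pow_zero, mul_one]

end Odd

end Cfsg.Agent.H16.POm
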