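import Cfsg.Agent.H16_POm6

set_option autoImplicit false

/-! Orthogonal groups of odd dimension: standard forms. -/

namespace Cfsg.Agent.H16.Gam

open Matrix Cfsg.Agent.H16.AutG Cfsg.Agent.H16.AutL Cfsg.Agent.H16.Desc

namespace Fam

variable {S : Type*} [Group S] {ι : Type} [Fintype ι] [DecidableEq ι] {F : Type*} [Field F] (Φ : Fam S ι F)

include Φ in
theorem conj_injective : Function.Injective (MulAut.conj : (S ⧸ Subgroup.center S) →* MulAut (S ⧸ Subgroup.center S)) := by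
  rw [injective_iff_map_eq_one]
  intro x hx
  induction x using QuotientGroup.induction_on with
  | H s =>
    rw [← Φ.T_inc s, Φ.T_eq_one_iff] at hx
    obtain ⟨c, hc⟩ := hx
    apply (QuotientGroup.eq_one_iff _).mpr
    rw [Φ.cen]
    exact ⟨c, SemidirectProduct.inl_injective hc⟩

include Φ in
theorem card_inn : Nat.card (Cfsg.Inn (S ⧸ Subgroup.center S)) = Nat.card (S ⧸ Subgroup.center S) := by
  symm
  exact Nat.card_congr (MonoidHom.ofInjective Φ.conj_injective).toEquiv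

theorem D_equiv : Nonempty (Φ.D ≃* Cfsg.projQuot Φ.N) := by
  have hfk : (Φ.T.comp Φ.nin).ker = (Cfsg.Geo.scalars ι F).subgroupOf Φ.N := by
    ext g
    rw [MonoidHom.mem_ker, Subgroup.mem_subgroupOf, mem_scalars]
    exact ker_nin g
  exact ⟨((QuotientGroup.quotientMulEquivOfEq hfk.symm).trans
    (QuotientGroup.quotientKerEquivRange (Φ.T.comp Φ.nin))).symm⟩

end Fam

end Cfsg.Agent.H16.Gam

namespace Cfsg.Agent.H16.GamT

open Cfsg.Agent.H16

/-- a split central extension. -/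
theorem exists_prod {G C H : Type*} [Group G] [CommGroup C] [Group H] (φ : G →* H) (s : H →* G)
    (hs : ∀ h, φ (s h) = h) (ψ : C →* G) (hψ : Function.Injective ψ) (hr : ψ.range = φ.ker)
    (hc : ∀ c g, ψ c * g = g * ψ c) : Nonempty (C × H ≃* G) := by
  have hφψ : ∀ c, φ (ψ c) = 1 := fun c => by
    rw [← MonoidHom.mem_ker, ← hr]
    exact ⟨c, rfl⟩
  let f : C × H →* G :=
    { toFun := fun x => ψ x.1 * s x.2
      map_one' := by simp
      map_mul' := fun x y => by
        rw [Prod.fst_mul, Prod.snd_mul, map_mul, map_mul, mul_assoc, mul_assoc]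
        congr 1
        rw [← mul_assoc, ← mul_assoc, hc] }
  refine ⟨MulEquiv.ofBijective f ⟨?_, ?_⟩⟩
  · rw [injective_iff_map_eq_one]
    rintro ⟨c, h⟩ hx
    change ψ c * s h = 1 at hx
    have h1 : h = 1 := by
      have := congrArg φ hx
      rwa [map_mul, hφψ, hs, one_mul, map_one] at this
    subst h1
    rw [map_one, mul_one] at hx
    have h2 : c = 1 := hψ (by rw [hx, map_one])
    rw [h2]
    rfl
  · intro g
    have h1 : g * (s (φ g))⁻¹ ∈ ψ.range := by
      rw [hr, MonoidHom.mem_ker, map_mul, map_inv, hs, mul_inv_cancel]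
    obtain ⟨c, hc'⟩ := h1
    refine ⟨⟨c, φ g⟩, ?_⟩
    change ψ c * s (φ g) = g
    rw [hc', inv_mul_cancel_right]

/-- normal subgroups of order two. -/
theorem exists_prod_two {G H : Type*} [Group G] [Group H] (φ : G →* H) (s : H →* G)
    (hs : ∀ h, φ (s h) = h) (ψ : ℤˣ →* G) (hψ : Function.Injective ψ) (hr : ψ.range = φ.ker) :
    Nonempty (ℤˣ × H ≃* G) := by
  refine exists_prod φ s hs ψ hψ hr ?_
  intro c g
  rcases Int.units_eq_one_or c with rfl | rfl
  · rw [map_one, one_mul, mul_one]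
  · have h1 : g * ψ (-1) * g⁻¹ ∈ ψ.range := by
      rw [hr]
      refine (inferInstance : φ.ker.Normal).conj_mem _ ?_ g
      rw [← hr]
      exact ⟨_, rfl⟩
    obtain ⟨d, hd⟩ := h1
    rcases Int.units_eq_one_or d with rfl | rfl
    · exfalso
      rw [map_one, eq_comm, mul_inv_eq_one, mul_eq_left] at hd
      exact absurd (hψ (hd.trans (map_one ψ).symm)) (by decide)
    · exact eq_mul_inv_iff_mul_eq.mp hd

end Cfsg.Agent.H16.GamT

namespace Cfsg.Agent.H16.POm

open Matrix Cfsg.Agent.H16.Ps Module Cfsg.Agent.H16.Gam Cfsg.Agent.H16.AutL Cfsg.Agent.H16.AutG Cfsg.Agent.H16.Desc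
open QuadraticMap (polar)
open Cfsg.Agent.H16

/-- fixed elements of an involution are squares. -/
theorem isSquare_of_fix {F : Type*} [Field F] [Finite F] (h2 : (2 : F) ≠ 0) {σ : F ≃+* F} (hσ : orderOf σ = 2) {x : F}
    (hx : σ x = x) : IsSquare x := by
  have := Fintype.ofFinite F
  by_cases hx0 : x = 0
  · rw [hx0]; exact IsSquare.zero
  have hch : ringChar F ≠ 2 := fun hch => by
    apply h2
    have := (ringChar.spec F 2).2 (by rw [hch])
    exact_mod_cast this
  obtain ⟨q₀, hq, hcard, -, hfix⟩ := card_fix σ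
  rw [hσ, Nat.card_eq_fintype_card] at hcard
  have hodd := Quad.card_mod_two h2
  rw [FiniteField.isSquare_iff hch hx0, hcard]
  have hq₀ : q₀ % 2 = 1 := by
    rcases Nat.mod_two_eq_zero_or_one q₀ with h | h
    · rw [hcard, Nat.pow_mod, h] at hodd
      exact absurd hodd (by decide)
    · exact h
  obtain ⟨k, hk⟩ : ∃ k, q₀ = 2 * k + 1 := ⟨q₀ / 2, by omega⟩
  have h3 : q₀ ^ 2 / 2 = (q₀ - 1) * (k + 1) := by
    rw [hk]
    have : (2 * k + 1) ^ 2 = 2 * (2 * k * (k + 1)) + 1 := by ring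
    rw [this, Nat.add_sub_cancel]
    omega
  let K : Subfield F := RingHom.eqLocusField (σ : F →+* F) (RingHom.id F)
  have : Fintype K := Fintype.ofFinite K
  have hKc : Fintype.card K = q₀ := by
    rw [← hfix, ← Nat.card_eq_fintype_card]
    exact Nat.card_congr (Equiv.subtypeEquivRight fun x => Iff.rfl)
  have h4 := FiniteField.pow_card_sub_one_eq_one (⟨x, hx⟩ : K) (fun h => hx0 (congrArg Subtype.val h))
  rw [hKc] at h4
  have h5 : x ^ (q₀ - 1) = 1 := congrArg Subtype.val h4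
  rw [h3, pow_mul, h5, one_pow]

/-- squares descend along odd extensions. -/
theorem isSquare_desc {F : Type*} [Field F] (h2 : (2 : F) ≠ 0) {σ : F ≃+* F} (hσ : Odd (orderOf σ)) {x t : F}
    (hx : σ x = x) (ht : x = t * t) : σ t = t := by
  by_cases ht0 : t = 0
  · rw [ht0, map_zero]
  have h1 : σ t * σ t = t * t := by rw [← map_mul, ← ht, hx]
  rcases mul_self_eq_mul_self_iff.mp h1 with h | h
  · exact h
  · exfalso
    have h3 : ∀ k : ℕ, (σ ^ k) t = (-1) ^ k * t := by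
      intro k
      induction k with
      | zero => simp
      | succ k ih =>
        rw [pow_succ', RingAut.mul_apply, ih, map_mul, map_pow, map_neg, map_one, h]
        ring
    have h4 := h3 (orderOf σ)
    rw [pow_orderOf_eq_one, RingAut.one_apply, hσ.neg_one_pow] at h4
    have h5 : 2 * t = 0 := by linear_combination h4
    rcases mul_eq_zero.mp h5 with h6 | h6
    · exact h2 h6
    · exact ht0 h6

section Gen

variable {ι : Type} [Fintype ι] [DecidableEq ι] {F : Type*} [Field F] [Finite F]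

theorem one_mem_Gam {Q : (ι → F) → F} {σ : F ≃+* F} (h : ∀ v, Q (fun i => σ (v i)) = σ (Q v)) :
    (⟨1, σ⟩ : Gm ι F) ∈ GamO Q := by
  refine ⟨1, fun v => ?_⟩
  change Q (((1 : GL ι F) : Matrix ι ι F) *ᵥ fun i => σ (v i)) = _
  rw [Units.val_one, one_mulVec, Units.val_one, one_mul]
  exact h v

theorem field_iff (A : OD ι F) {σ : F ≃+* F} (hσ : (⟨1, σ⟩ : Gm ι F) ∈ GamO ⇑A.Q)
    {β : MulAut (Cfsg.POmega F ⇑A.Q)} : Cfsg.IsFieldAutPOmegaOf ⇑A.Q σ β ↔
      β = (fam A).T ⟨⟨1, σ⟩, hσ⟩ := by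
  rw [← induced_iff A hσ]
  constructor
  · intro h s s' hs
    apply h s s'
    rw [hs]
    simp
  · intro h s s' hs
    apply h s s'
    rw [hs]
    simp

theorem aut_finite (A : OD ι F) : Finite (MulAut (Cfsg.POmega F ⇑A.Q)) := inferInstance

/-- over a form with rational coefficients. -/
theorem hasField_of {A : OD ι F} (h : ∀ (σ : F ≃+* F) v, A.Q (fun i => σ (v i)) = σ (A.Q v)) :
    (fam A).HasField := fun σ => one_mem_Gam (h σ)

theorem lang_of {A : OD ι F} (h : ∀ (σ : F ≃+* F) v, A.Q (fun i => σ (v i)) = σ (A.Q v)) (σ : F ≃+* F)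
    (R : QuadraticForm (FixK σ) (ι → FixK σ))
    (hR : ∀ x : ι → FixK σ, A.Q (fun i => (x i : F)) = ((R x : FixK σ) : F))
    (hcl : ∀ Q₀ : QuadraticForm (FixK σ) (ι → FixK σ), (QuadraticMap.polarBilin Q₀).Nondegenerate →
      (∃ (h : GL ι F) (l : Fˣ), ∀ x : ι → FixK σ, ((Q₀ x : FixK σ) : F) = ((l⁻¹ : Fˣ) : F) *
        A.Q ((h : Matrix ι ι F) *ᵥ fun i => (x i : F))) →
      ∃ (g₀ : GL ι (FixK σ)) (d : (FixK σ)ˣ), ∀ x, Q₀ ((g₀ : Matrix ι ι (FixK σ)) *ᵥ x) = d * R x) :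
    Fam.Lang (fam A) σ := by
  intro g hg hgn
  have := nonempty A
  obtain ⟨c, hc⟩ := sim_mem_Gam.mp hg
  obtain ⟨y, l, hy1, hy2⟩ := lang_std A.nd (g := g) (σ := σ) (c := c) (fun v => by
    rw [← h]
    exact hc _) hgn R hR hcl
  refine ⟨y, sim_mem_Gam.mpr ⟨l, hy2⟩, 1, ?_⟩
  rw [_root_.map_one, one_mul, eq_mul_inv_iff_mul_eq]
  exact hy1

end Gen

section OddStd

theorem rat_odd {F K : Type*} [Field F] [Field K] (e : K →+* F) {m : ℕ} (x : Unit ⊕ (Fin m ⊕ Fin m) → K) :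
    Quad.oddQ F m (fun i => e (x i)) = e (Quad.oddQ K m x) := by
  rw [Quad.oddQ_apply, Quad.oddQ_apply]
  simp only [Cfsg.quadFormOdd, map_add, map_pow, map_sum, map_mul]

theorem exists_sim_odd {K : Type*} [Field K] [Finite K] (h2 : (2 : K) ≠ 0) {κ : Type} [Fintype κ] [DecidableEq κ]
    (hκ : Odd (Fintype.card κ)) {Q₀ R : QuadraticForm K (κ → K)}
    (hQ₀ : (QuadraticMap.polarBilin Q₀).Nondegenerate) (hR : (QuadraticMap.polarBilin R).Nondegenerate) :
    ∃ (g₀ : GL κ K) (d : Kˣ), ∀ x, Q₀ ((g₀ : Matrix κ κ K) *ᵥ x) = d * R x := by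
  set b := Pi.basisFun K κ with hb
  have h3 := Quad.det_gram_ne_zero hQ₀ b
  have h4 := Quad.det_gram_ne_zero hR b
  set d := (Quad.gram Q₀ b).det * (Quad.gram R b).det with hd
  have hd0 : d ≠ 0 := mul_ne_zero h3 h4
  have h5 : Quad.gram (d • Q₀) b = d • Quad.gram Q₀ b := by
    ext i j
    simp only [Quad.gram, Matrix.of_apply, Matrix.smul_apply, smul_eq_mul]
    exact Quad.polar_smulQ _ _ _
  obtain ⟨φ, hφ⟩ := Quad.isom_of_disc h2 (Quad.nd_smulQ hd0 hQ₀) hR rfl b b (by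
    rw [h5, Matrix.det_smul]
    obtain ⟨k, hk⟩ := hκ
    refine ⟨d ^ (k + 1), ?_⟩
    rw [hk, mul_assoc, ← hd]
    ring)
  refine ⟨(Quad.glE K κ).symm φ.symm, Units.mk0 d⁻¹ (inv_ne_zero hd0), fun x => ?_⟩
  have h6 : (((Quad.glE K κ).symm φ.symm : GL κ K) : Matrix κ κ K) *ᵥ x = φ.symm x := by
    have := Quad.glE_apply ((Quad.glE K κ).symm φ.symm) x
    rw [← this, MulEquiv.apply_symm_apply]
  have h7 := hφ (φ.symm x)
  rw [LinearEquiv.apply_symm_apply, Quad.smulQ_apply] at h7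
  rw [h6, h7, Units.val_mk0, inv_mul_cancel_left₀ hd0]

theorem odd_card (m : ℕ) : Odd (Fintype.card (Unit ⊕ (Fin m ⊕ Fin m))) := by
  simp only [Fintype.card_sum, Fintype.card_unit, Fintype.card_fin]
  exact ⟨m, by ring⟩

variable {F : Type*} [Field F] [Finite F] (h2 : (2 : F) ≠ 0) {m : ℕ} (hm : 3 ≤ m)

theorem hasField_odd : (fam (odO F h2 hm)).HasField := hasField_of fun σ v => rat_odd (σ : F →+* F) v

omit [Finite F] in
include h2 in
theorem two_ne_K (K : Subfield F) : (2 : K) ≠ 0 := fun h => h2 (congrArg (fun z : K => (z : F)) h)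

theorem lang_odd (σ : F ≃+* F) : Fam.Lang (fam (odO F h2 hm)) σ := by
  have hKf : Finite (FixK σ) := inferInstance
  refine lang_of (A := odO F h2 hm) (fun σ v => rat_odd (σ : F →+* F) v) σ (Quad.oddQ (FixK σ) m)
    (fun x => rat_odd (FixK σ).subtype x) (fun Q₀ h₀ _ => ?_)
  exact exists_sim_odd (two_ne_K h2 _) (odd_card m) h₀ (Quad.nd_oddQ (two_ne_K h2 _) m)

end OddStd

end Cfsg.Agent.H16.POm
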