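import Cfsg.Agent.H16_POm7

set_option autoImplicit false

/-! Orthogonal groups of odd dimension: counts. -/

namespace Cfsg.Agent.H16.POm

open Matrix Cfsg.Agent.H16.Ps Module Cfsg.Agent.H16.Gam Cfsg.Agent.H16.AutL Cfsg.Agent.H16.AutG Cfsg.Agent.H16.Desc
open QuadraticMap (polar)
open Cfsg.Agent.H16

section Cent

variable {ι : Type} [Fintype ι] [DecidableEq ι] {F : Type*} [Field F] [Finite F]

theorem cent_of {A : OD ι F} (hf : (fam A).HasField) {σ : F ≃+* F} {q₀ : ℕ}
    (hcard : Nat.card F = q₀ ^ orderOf σ) (hfix : Nat.card {x : F // σ x = x} = q₀)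
    {F₀ : Type*} [Field F₀] [Fintype F₀] (hF₀ : Fintype.card F₀ = q₀) (A₀ : OD ι F₀)
    (hR : ∀ (e : F₀ →+* F) (x : ι → F₀), A.Q (fun i => e (x i)) = e (A₀.Q x)) :
    Nonempty (↥((fam A).D ⊓ Subgroup.centralizer {(fam A).T (Fam.fin hf σ)}) ≃* (fam A₀).D) := by
  obtain ⟨e, he⟩ := exists_emb hcard hfix F₀ hF₀
  have hnt := nonempty A
  obtain ⟨E⟩ := (fam A).cent_field hf (orderOf_pos σ) he (fam A₀).N (fun g => by
    have h1 := map_sim e (hR e) A₀.nd g
    rw [Fam.mem_N, Fam.mem_N]
    exact sim_mem_Gam.trans (h1.symm.trans sim_mem_Gam.symm))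
  obtain ⟨E'⟩ := (fam A₀).D_equiv
  exact ⟨E.trans E'.symm⟩

/-- elements fixed by a field automorphism up to scalars. -/
theorem comm_odd {A : OD ι F} (hodd : Odd (Fintype.card ι)) (h2 : (2 : F) ≠ 0)
    (hQσ : ∀ (σ : F ≃+* F) v, A.Q (fun i => σ (v i)) = σ (A.Q v)) {σ : F ≃+* F}
    {g : GL ι F} (hg : g ∈ Cfsg.isometryGroup F ⇑A.Q) {c : Fˣ} (hc : gσ σ g = scl ι c * g) : gσ σ g = g := by
  have hgs : gσ σ g ∈ Cfsg.isometryGroup F ⇑A.Q := by
    have h1 := act_iso (one_mem_Gam (hQσ σ)) hg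
    rw [act_apply] at h1
    change 1 * gσ σ g * 1⁻¹ ∈ _ at h1
    rwa [one_mul, inv_one, mul_one] at h1
  have h1 : scl ι c ∈ Cfsg.isometryGroup F ⇑A.Q := by
    have : scl ι c = gσ σ g * g⁻¹ := by rw [hc, mul_inv_cancel_right]
    rw [this]
    exact mul_mem hgs (inv_mem hg)
  rcases (scl_iso A).mp h1 with rfl | rfl
  · rw [hc, _root_.map_one, one_mul]
  · exfalso
    have h3 := congrArg (fun g : GL ι F => (g : Matrix ι ι F).det) hc
    have h4 : ((gσ σ g : GL ι F) : Matrix ι ι F).det = σ (g : Matrix ι ι F).det :=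
      ((σ : F →+* F).map_det (g : Matrix ι ι F)).symm
    have h5 : ((scl ι (-1 : Fˣ) * g : GL ι F) : Matrix ι ι F).det = - (g : Matrix ι ι F).det := by
      rw [Units.val_mul, Matrix.det_mul]
      change (Matrix.scalar ι (((-1 : Fˣ)) : F)).det * _ = _
      rw [Matrix.scalar_apply, Matrix.det_diagonal, Finset.prod_const, Finset.card_univ, Units.val_neg, Units.val_one,
        hodd.neg_one_pow, neg_one_mul]
    simp only [h4, h5] at h3
    rcases Quad.iso_det_sq A.nd ⟨g, hg⟩ with h | h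
    · change (g : Matrix ι ι F).det = 1 at h
      rw [h, map_one] at h3
      apply h2
      linear_combination h3
    · change (g : Matrix ι ι F).det = -1 at h
      rw [h, map_neg, map_one] at h3
      apply h2
      linear_combination -h3

end Cent

section OddStd

variable {F : Type*} [Field F] [Finite F] (h2 : (2 : F) ≠ 0) {m : ℕ} (hm : 3 ≤ m)

theorem split_odd {σ : F ≃+* F} (hσ : Odd (orderOf σ) ∨ orderOf σ = 2) :
    Cfsg.splitClassCount (fam (odO F h2 hm)).D (Cfsg.Inn (Cfsg.POmega F ⇑(odO F h2 hm).Q))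
      ((fam (odO F h2 hm)).T (Fam.fin (hasField_odd h2 hm) σ)) = if orderOf σ = 2 then 2 else 1 := by
  set A := odO F h2 hm with hA
  have hodd := odd_card m
  have hnt := nonempty A
  have hQσ : ∀ (σ : F ≃+* F) v, A.Q (fun i => σ (v i)) = σ (A.Q v) := fun σ v => rat_odd (σ : F →+* F) v
  obtain ⟨θ, χ, c1, c2, c3, c4, c5, c6, c7, c8⟩ := exists_chi_odd (A := A) hodd h2
  have h1 := GamT.split_gen (D := (fam A).D) (K := Cfsg.Inn (Cfsg.POmega F ⇑A.Q)) inferInstance (fam A).inn_le_D (fO A)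
    (fO_range_odd hodd) χ c1 c2 (fun k hk => by
      obtain ⟨g, hg, hgk⟩ := inn_fO A k hk
      exact ⟨g, hgk, c3 g hg⟩) ((fam A).T (Fam.fin (hasField_odd h2 hm) σ))
  have h3 : (fO A).ker.map χ = ⊥ := by
    rw [eq_bot_iff]
    rintro _ ⟨g, hg, rfl⟩
    exact c4 g hg
  rw [h3, sup_bot_eq] at h1
  rw [h1]
  -- the rational structure
  set K := FixK σ with hK
  have hKf : Finite K := inferInstance
  have h2K : (2 : K) ≠ 0 := two_ne_K h2 _
  let R : QuadraticForm K (Unit ⊕ (Fin m ⊕ Fin m) → K) := Quad.oddQ K m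
  have hRn : (QuadraticMap.polarBilin R).Nondegenerate := Quad.nd_oddQ h2K m
  have hR : ∀ x : Unit ⊕ (Fin m ⊕ Fin m) → K, A.Q (fun i => K.subtype (x i)) = K.subtype (R x) :=
    fun x => rat_odd K.subtype x
  split_ifs with hr
  · -- involution
    have hrat : ∀ g : Cfsg.isometryGroup F ⇑A.Q, gσ σ (g : GL (Unit ⊕ (Fin m ⊕ Fin m)) F) = g → θ g = 1 := by
      rintro ⟨g, hg⟩ hgσ
      change gσ σ g = g at hgσ
      obtain ⟨G, hG⟩ := exists_desc (e := K.subtype) (σ := σ) (fun a => by
        constructor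
        · intro ha; exact ⟨⟨a, ha⟩, rfl⟩
        · rintro ⟨a, rfl⟩; exact a.2) hgσ
      subst hG
      have hG' := (map_iso K.subtype hR G).mp hg
      obtain ⟨vs, k1, k2⟩ := exists_rat_list K.subtype hR hRn (Or.inl (Quad.card_ne_two_of h2K)) hG'
      rw [c5 _ _ _ k2]
      · rw [List.map_map]
        have : ∀ vs : List (Unit ⊕ (Fin m ⊕ Fin m) → K),
            IsSquare (vs.map (A.Q ∘ fun v i => K.subtype (v i))).prod := by
          intro vs
          induction vs with
          | nil => simp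
          | cons v vs ih =>
            rw [List.map_cons, List.prod_cons]
            refine IsSquare.mul ?_ ih
            apply isSquare_of_fix h2 hr
            have h6 : (⇑A.Q ∘ fun (v : Unit ⊕ (Fin m ⊕ Fin m) → K) i => K.subtype (v i)) v = K.subtype (R v) := hR v
            rw [h6]
            exact (R v).2
        exact this vs
      · intro v hv
        obtain ⟨w, hw, rfl⟩ := List.mem_map.mp hv
        rw [hR, Ne, map_eq_zero]
        exact k1 w hw
    have hχθ : χ = θ := c8 (hrat _ (by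
      change gσ σ (scl _ (-1)) = scl _ (-1)
      rw [gσ_sc]
      congr 1
      apply Units.ext
      change σ (((-1 : Fˣ)) : F) = _
      simp))
    have h5 : ((Subgroup.centralizer {(fam A).T (Fam.fin (hasField_odd h2 hm) σ)}).comap (fO A)).map χ = ⊥ := by
      rw [eq_bot_iff]
      rintro _ ⟨⟨g, hg⟩, hgc, rfl⟩
      rw [hχθ]
      apply hrat
      obtain ⟨c, hc⟩ := ((fam A).comm_iff (hasField_odd h2 hm) (g := ⟨g, iso_le_N A hg⟩)).mp hgc
      exact comm_odd hodd h2 hQσ hg hc
    rw [h5, Subgroup.index_bot]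
    simp [Nat.card_eq_fintype_card]
  · have hσo := hσ.resolve_right hr
    have h5 : ((Subgroup.centralizer {(fam A).T (Fam.fin (hasField_odd h2 hm) σ)}).comap (fO A)).map χ = ⊤ := by
      rw [eq_top_iff]
      rintro a -
      rcases Int.units_eq_one_or a with rfl | rfl
      · exact one_mem _
      obtain ⟨⟨v, hv, hv2⟩, w, hw, hw2⟩ := Quad.exists_both hRn h2K (by
        rw [Module.finrank_fintype_fun_eq_card]
        simp only [Fintype.card_sum, Fintype.card_unit, Fintype.card_fin]; omega)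
      -- the rational element
      have hmem : ∀ v : Unit ⊕ (Fin m ⊕ Fin m) → K, R v ≠ 0 → A.Q (fun i => K.subtype (v i)) ≠ 0 := by
        intro v hv
        rw [hR, Ne, map_eq_zero]; exact hv
      let g : Cfsg.isometryGroup F ⇑A.Q := (Quad.toOG A.Q).symm (Quad.rpr A.Q ([v, w].map fun v i => K.subtype (v i)))
      have hgl : Quad.toOG A.Q g = Quad.rpr A.Q ([v, w].map fun v i => K.subtype (v i)) := MulEquiv.apply_symm_apply _ _
      have hgm := Quad.symm_rpr_coe A.Q ([v, w].map fun v i => K.subtype (v i))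
      have hgσ : gσ σ (g : GL (Unit ⊕ (Fin m ⊕ Fin m)) F) = g := by
        apply Units.ext
        change ((g : GL (Unit ⊕ (Fin m ⊕ Fin m)) F) : Matrix (Unit ⊕ (Fin m ⊕ Fin m)) (Unit ⊕ (Fin m ⊕ Fin m)) F).map σ = _
        have h6 : ((g : GL (Unit ⊕ (Fin m ⊕ Fin m)) F) : Matrix (Unit ⊕ (Fin m ⊕ Fin m)) (Unit ⊕ (Fin m ⊕ Fin m)) F) = (([v, w].map (fun v => Cfsg.reflectionMatrix ⇑R v)).prod).map K.subtype := by
          refine hgm.trans ?_
          rw [← RingHom.mapMatrix_apply, map_list_prod, List.map_map, List.map_map]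
          congr 1
          apply List.map_congr_left
          intro v _
          exact (map_reflection K.subtype hR v).symm
        rw [h6]
        ext i j
        exact ((([v, w].map (fun v => Cfsg.reflectionMatrix ⇑R v)).prod) i j).2
      refine ⟨g, ?_, ?_⟩
      · refine ((fam A).comm_iff (hasField_odd h2 hm) (g := ⟨(g : GL (Unit ⊕ (Fin m ⊕ Fin m)) F), iso_le_N A g.2⟩)).mpr ⟨1, ?_⟩
        rw [_root_.map_one, one_mul]
        exact hgσ
      · have hns : ∀ u ∈ [v, w].map (fun (v : Unit ⊕ (Fin m ⊕ Fin m) → K) i => K.subtype (v i)), A.Q u ≠ 0 := by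
          intro u hu
          obtain ⟨u', hu', rfl⟩ := List.mem_map.mp hu
          apply hmem
          rcases List.mem_cons.mp hu' with rfl | h
          · exact hv
          · rw [List.mem_singleton.mp h]; exact hw
        have h7 := c5 g _ hns hgl
        rw [c7 g _ hns hgl (by simp)]
        rcases Int.units_eq_one_or (θ g) with h | h
        · exfalso
          have h8 := h7.mp h
          simp only [List.map_cons, List.map_nil, List.prod_cons, List.prod_nil, mul_one, hR] at h8
          rw [← map_mul] at h8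
          obtain ⟨t, ht⟩ := h8
          have h9 := isSquare_desc h2 hσo (R v * R w).2 ht
          have h10 : IsSquare (R v * R w) := ⟨⟨t, h9⟩, Subtype.ext ht⟩
          apply hw2
          exact ((Quad.isSquare_mul_iff hv hw).mp h10).mp hv2
        · exact h
    rw [h5, Subgroup.index_top]

include h2 in
theorem relIndex_odd {ι : Type} [Fintype ι] [DecidableEq ι] {A : OD ι F} (hodd : Odd (Fintype.card ι)) :
    (Cfsg.Inn (Cfsg.POmega F ⇑A.Q)).relIndex (fam A).D = 2 := by
  obtain ⟨θ, χ, c1, c2, c3, c4, -⟩ := exists_chi_odd (A := A) hodd h2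
  have h1 : (Cfsg.Inn (Cfsg.POmega F ⇑A.Q)).comap (fO A) = χ.ker := by
    ext g
    rw [Subgroup.mem_comap, MonoidHom.mem_ker]
    constructor
    · intro h
      obtain ⟨g', hg', e⟩ := inn_fO A _ h
      have h3 : g * g'⁻¹ ∈ (fO A).ker := by
        rw [MonoidHom.mem_ker, _root_.map_mul, _root_.map_inv, e, mul_inv_cancel]
      have h4 := c4 _ h3
      rwa [_root_.map_mul, _root_.map_inv, c3 g' hg', inv_one, mul_one] at h4
    · exact c2 g
  rw [← fO_range_odd hodd, ← Subgroup.index_comap, h1, Subgroup.index_ker, MonoidHom.range_eq_top.mpr c1]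
  simp [Nat.card_eq_fintype_card]

include h2 in
theorem card_D_odd {ι : Type} [Fintype ι] [DecidableEq ι] {A : OD ι F} (hodd : Odd (Fintype.card ι)) :
    Nat.card (fam A).D = 2 * Nat.card (Cfsg.POmega F ⇑A.Q) := by
  have h1 := (fam A).card_inn
  have h3 := Subgroup.relIndex_mul_relIndex ⊥ (Cfsg.Inn (Cfsg.POmega F ⇑A.Q)) (fam A).D bot_le (fam A).inn_le_D
  rw [relIndex_odd h2 hodd, Subgroup.relIndex_bot_left, Subgroup.relIndex_bot_left] at h3
  rw [← h3, mul_comm]
  congr 1

end OddStd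

end Cfsg.Agent.H16.POm
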