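import Cfsg.Agent.H16_POm8

set_option autoImplicit false

/-! Orthogonal groups of odd dimension: final statements. -/

namespace Cfsg.Agent.H16.POm

open Matrix Cfsg.Agent.H16.Ps Module Cfsg.Agent.H16.Gam Cfsg.Agent.H16.AutL Cfsg.Agent.H16.AutG Cfsg.Agent.H16.Desc
open QuadraticMap (polar)
open Cfsg.Agent.H16

variable {F : Type*} [Field F] [Fintype F] (h2 : (2 : F) ≠ 0) {m : ℕ} (hm : 3 ≤ m)
  {q : (Unit ⊕ (Fin m ⊕ Fin m) → F) → F} (hq : ⇑(odO F h2 hm).Q = q)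

include hq

theorem card_aut_odd {p f : ℕ} [Fact p.Prime] (hf : 1 ≤ f) (hF : Fintype.card F = p ^ f) :
    Nat.card (MulAut (Cfsg.POmega F q)) = 2 * f * Nat.card (Cfsg.POmega F q) := by
  subst hq
  have hcf : Nat.card (F ≃+* F) = f := Cfsg.Agent.H16.FAut.card_ringAut (p := p)
    (by rw [Nat.card_eq_fintype_card, hF]) hf
  obtain ⟨θ, h1, h3, -⟩ := Fam.exists_theta (full (good_odd (F := F) h2 hm)) (hasField_odd h2 hm)
  have hfin := aut_finite (odO F h2 hm)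
  refine (card_of_theta θ h1).trans ?_
  rw [h3, hcf, card_D_odd h2 (odd_card m)]
  ring

theorem out_odd {p f : ℕ} [Fact p.Prime] (hf : 1 ≤ f) (hF : Fintype.card F = p ^ f) :
    Nonempty (Cfsg.Out (Cfsg.POmega F q) ≃* Multiplicative (ZMod 2 × ZMod f)) := by
  subst hq
  set A := odO F h2 hm with hA
  have hcf : Nat.card (F ≃+* F) = f := Cfsg.Agent.H16.FAut.card_ringAut (p := p)
    (by rw [Nat.card_eq_fintype_card, hF]) hf
  have eZ : (F ≃+* F) ≃* Multiplicative (ZMod f) := by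
    rw [← hcf]
    exact (zmodCyclicMulEquiv inferInstance).symm
  obtain ⟨θ, h1, h3, h4⟩ := Fam.exists_theta (full (good_odd (F := F) h2 hm)) (hasField_odd h2 hm)
  obtain ⟨φ, e1, e2, e3⟩ := GamT.out_gen (K := Cfsg.Inn (Cfsg.POmega F ⇑A.Q)) inferInstance (fam A).inn_le_D θ h1 h3
  obtain ⟨θ', χ, c1, c2, c3, c4, -⟩ := exists_chi_odd (A := A) (odd_card m) h2
  obtain ⟨ψ, k1, k2, k3⟩ := GamT.quot_gen (D := (fam A).D) (K := Cfsg.Inn (Cfsg.POmega F ⇑A.Q)) inferInstance (fO A)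
    (fO_range_odd (odd_card m)) χ c1 c2 (fun k hk => by
      obtain ⟨g, hg, hgk⟩ := inn_fO A k hk
      exact ⟨g, hgk, c3 g hg⟩)
  have h5 : (fO A).ker.map χ = ⊥ := by
    rw [eq_bot_iff]
    rintro _ ⟨g, hg, rfl⟩
    exact c4 g hg
  rw [h5] at k2
  let s : (F ≃+* F) →* Cfsg.Out (Cfsg.POmega F ⇑A.Q) :=
    (QuotientGroup.mk' _).comp ((fam A).T.comp (Fam.fin (hasField_odd h2 hm)))
  obtain ⟨E⟩ := GamT.exists_prod_two φ s (fun σ => by
    change φ (QuotientGroup.mk ((fam A).T (Fam.fin (hasField_odd h2 hm) σ))) = σ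
    rw [e3]
    exact h4 σ) ψ ((MonoidHom.ker_eq_bot_iff ψ).mp k2) (by rw [k1, e2])
  have eU : ℤˣ ≃* Multiplicative (ZMod 2) :=
    mulEquivOfPrimeCardEq (p := 2) (by simp [Nat.card_eq_fintype_card]) (by simp [Nat.card_eq_fintype_card])
  exact ⟨E.symm.trans ((MulEquiv.prodCongr eU eZ).trans (MulEquiv.prodMultiplicative _ _).symm)⟩

theorem field_class_odd {x : MulAut (Cfsg.POmega F q)} (hx : Cfsg.IsFieldAutClassPOmega q x) :
    ∃ (α : MulAut (Cfsg.POmega F ⇑(odO F h2 hm).Q)) (σ : F ≃+* F), σ ≠ 1 ∧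
      α * (hq ▸ x) * α⁻¹ = (fam (odO F h2 hm)).T (Fam.fin (hasField_odd h2 hm) σ) := by
  subst hq
  obtain ⟨α, φ, σ, hσ, h, hα⟩ := hx
  rw [field_iff (odO F h2 hm) (hasField_odd h2 hm σ)] at h
  exact ⟨α, σ, hσ, hα.trans h⟩

theorem coset_odd (x δ : MulAut (Cfsg.POmega F q)) (hx : Cfsg.IsFieldAutClassPOmega q x) {r : ℕ} (hr : r.Prime)
    (hxr : orderOf x = r) (hδ : δ ∈ Cfsg.pgoAut F q) :
    orderOf (δ * x) = r ↔ Cfsg.IsConjUnder (Cfsg.pgoAut F q) x (δ * x) := by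
  subst hq
  set A := odO F h2 hm with hA
  have hDn : (fam A).D.Normal := (full (good_odd (F := F) h2 hm)).D_normal
  have hnt := nonempty A
  rw [closure_D] at hδ ⊢
  obtain ⟨α, φ, σ, hσ, h, hα⟩ := hx
  rw [field_iff A (hasField_odd h2 hm σ)] at h
  exact Fam.coset_iff (hasField_odd h2 hm) hDn (lang_odd h2 hm) (hα.trans h) hr.pos hxr hδ

theorem cent_odd {p f : ℕ} [Fact p.Prime] (hF : Fintype.card F = p ^ f)
    (x : MulAut (Cfsg.POmega F q)) (hx : Cfsg.IsFieldAutClassPOmega q x) {r : ℕ} (hr : r.Prime)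
    (hxr : orderOf x = r) (F₀ : Type*) [Field F₀] [Fintype F₀] (hF₀ : Fintype.card F₀ = p ^ (f / r))
    {q' : (Unit ⊕ (Fin m ⊕ Fin m) → F₀) → F₀} (hq' : ⇑(Quad.oddQ F₀ m) = q') :
    r ∣ f ∧ Nonempty (↥(Cfsg.pgoAut F q ⊓ Subgroup.centralizer {x}) ≃* ↥(Cfsg.pgoAut F₀ q')) ∧
      (Odd r → Cfsg.splitClassCount (Cfsg.pgoAut F q) (Cfsg.Inn (Cfsg.POmega F q)) x = 1) ∧
      (r = 2 → Cfsg.splitClassCount (Cfsg.pgoAut F q) (Cfsg.Inn (Cfsg.POmega F q)) x = 2) := by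
  subst hq
  subst hq'
  have hDn : (fam (odO F h2 hm)).D.Normal := (full (good_odd (F := F) h2 hm)).D_normal
  have hnt := nonempty (odO F h2 hm)
  rw [closure_D]
  obtain ⟨α, φ, σ, hσ, h, hα⟩ := hx
  rw [field_iff (odO F h2 hm) (hasField_odd h2 hm σ)] at h
  replace hα : α * x * α⁻¹ = (fam (odO F h2 hm)).T (Fam.fin (hasField_odd h2 hm) σ) := hα.trans h
  have hσr : orderOf σ = r := by
    rw [← Fam.orderOf_fin (hasField_odd h2 hm) σ, ← hα, orderOf_conj', hxr]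
  obtain ⟨q₀, hq, hcard, hfix, hfix'⟩ := card_fix σ
  have hpr : p.Prime := Fact.out
  obtain ⟨hrf, hq₀⟩ := prime_pow_root hpr (show p ^ f = q₀ ^ r by
    rw [← hF, ← Nat.card_eq_fintype_card, hcard, hσr]) hr.pos
  have h2' : (2 : F₀) ≠ 0 := by
    apply Quad.two_ne_zero_of_odd_card hF₀
    have hp2 : p ≠ 2 := by
      rintro rfl
      have h3 := Quad.card_mod_two h2
      rw [hF, Nat.pow_mod] at h3
      rcases Nat.eq_zero_or_pos f with rfl | hf
      · have := Fintype.one_lt_card (α := F)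
        rw [hF, pow_zero] at this
        omega
      · norm_num [Nat.zero_pow hf] at h3
    exact (hpr.odd_of_ne_two hp2).pow
  refine ⟨hrf, ?_, ?_⟩
  · apply Split.nonempty_centralizer_conj (fam (odO F h2 hm)).D hDn α x
    rw [hα]
    have h3 := closure_D (odO F₀ h2' hm)
    have h4 : Cfsg.pgoAut F₀ ⇑(Quad.oddQ F₀ m) = (fam (odO F₀ h2' hm)).D := h3
    rw [h4]
    exact cent_of (hasField_odd h2 hm) hcard hfix' (by rw [hF₀, hq₀]) (odO F₀ h2' hm) (fun e x => rat_odd e x)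
  · have hr' : Odd (orderOf σ) ∨ orderOf σ = 2 := by
      rw [hσr]
      rcases hr.eq_two_or_odd' with h | h
      · exact Or.inr h
      · exact Or.inl h
    have h1 := Split.splitClassCount_conj (fam (odO F h2 hm)).D (Cfsg.Inn (Cfsg.POmega F ⇑(odO F h2 hm).Q)) inferInstance hDn (fam (odO F h2 hm)).inn_le_D α x
    rw [hα, split_odd h2 hm hr', hσr] at h1
    constructor
    · intro ho
      rw [if_neg (by rintro rfl; exact absurd ho (by decide))] at h1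
      exact h1.symm
    · intro h
      rw [if_pos h] at h1
      exact h1.symm

end Cfsg.Agent.H16.POm
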