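import Cfsg.Agent.H16_Her4
import Cfsg.Agent.H5_Unit
import Cfsg.Prelude.Def_LieTypeDatum

set_option autoImplicit false

/-! The unitary groups as polar spaces with groups. -/

namespace Cfsg.Agent.H16.Ps

theorem Pol.Herm.siegel_h {F V : Type*} [Field F] [AddCommGroup V] [Module F V] {P : Pol F V} (hP : P.Herm)
    {z v w : V} (hz : P.sg z) (hv : P.sg v) (hw : P.sg w) (hzv : P.h z v = 1) (hzw : P.h z w = 1) (x y : V) :
    P.h (x + P.h z x • (w - v) - (P.ε * P.h (w - v) x) • z + (P.ε * P.h w v * P.h z x) • z)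
      (y + P.h z y • (w - v) - (P.ε * P.h (w - v) y) • z + (P.ε * P.h w v * P.h z y) • z) = P.h x y := by
  have h0 := P.sg_self z hz
  have hu : P.h z (w - v) = 0 := by rw [P.h_sub_right, hzv, hzw, sub_self]
  have hu' := P.h_comm_zero.mp hu
  have huu : P.h (w - v) (w - v) = -(P.h w v + P.bar (P.h w v)) := by
    rw [P.h_sub_left, P.h_sub_right, P.h_sub_right, P.sg_self w hw, P.sg_self v hv, hP.swap w v]
    ring
  generalize hu₀ : w - v = u at *
  simp only [P.h_add_left, P.h_add_right, P.h_sub_left, P.h_sub_right, P.h_smul_left, P.h_smul_right, h0, hu, hu', huu,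
    hP.eps, one_mul, map_mul, mul_zero, sub_zero, add_zero, P.bar_bar]
  rw [hP.swap u x, hP.swap z x]
  ring

theorem siegel_cube {F V : Type*} [Field F] [AddCommGroup V] [Module F V] (P : Pol F V)
    {z v w : V} (hz : P.sg z) (hzv : P.h z v = 1) (hzw : P.h z w = 1)
    (N : V → V) (hN : ∀ x, N x = P.h z x • (w - v) - (P.ε * P.h (w - v) x) • z + (P.ε * P.h w v * P.h z x) • z) (x : V) :
    N (N (N x)) = 0 := by
  have h0 := P.sg_self z hz
  have hu : P.h z (w - v) = 0 := by rw [P.h_sub_right, hzv, hzw, sub_self]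
  have hu' := P.h_comm_zero.mp hu
  generalize hu₀ : w - v = u at *
  have h1 : ∀ x, P.h z (N x) = 0 := by
    intro x
    rw [hN, P.h_add_right, P.h_sub_right, P.h_smul_right, P.h_smul_right, P.h_smul_right, h0, hu]
    ring
  have h2 : ∀ x, N (N x) = -(P.ε * P.h u (N x)) • z := by
    intro x
    rw [hN (N x), h1, zero_smul, mul_zero, zero_smul, zero_sub, add_zero, neg_smul]
  rw [h2 (N x), h2 x, P.h_smul_right, hu', mul_zero, mul_zero, neg_zero, zero_smul]

/-- unipotent matrices have determinant one. -/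
theorem det_one_of_cube {ι F : Type*} [Fintype ι] [DecidableEq ι] [Field F] [Finite F] {A : Matrix ι ι F}
    (h : (A - 1) ^ 3 = 0) : A.det = 1 := by
  obtain ⟨p, hp⟩ := CharP.exists F
  have : Fact p.Prime := ⟨CharP.char_is_prime F p⟩
  rcases isEmpty_or_nonempty ι with hι | hι
  · exact Matrix.det_isEmpty
  have h1 : A ^ p ^ 2 = 1 := by
    have h2 : A = 1 + (A - 1) := by abel
    have hp2 : 3 ≤ p ^ 2 := by
      have := (Fact.out : p.Prime).two_le
      nlinarith
    have hch : CharP (Matrix ι ι F) p := inferInstance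
    rw [h2, add_pow_char_pow_of_commute p 2 (Commute.one_left _), one_pow, pow_eq_zero_of_le hp2 h, add_zero]
  have h2 := congrArg Matrix.det h1
  rw [Matrix.det_pow, Matrix.det_one] at h2
  exact scalar_pow_one (p := p) h2

end Cfsg.Agent.H16.Ps

namespace Cfsg.Agent.H16.PSU

open Matrix Cfsg.Agent.H5 Cfsg.Agent.H5.Unit Cfsg.Agent.H5.Frm Cfsg.Agent.H5.Conc Cfsg.Agent.H16.Ps

variable {F : Type*} [Field F] [Fintype F] {q : ℕ}

/-- the unitary polar space. -/
noncomputable def suP (hF : Fintype.card F = q ^ 2) (n : ℕ) : Pol F (Fin n → F) where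
  bar := Fld.frob hF
  bar_bar := Fld.frob_frob hF
  ε := 1
  eps_mul := one_mul 1
  bar_eps := map_one _
  h x y := Cfsg.hermForm n F q y x
  h_add_right x y z := herm_add_left y z x
  h_smul_right a x y := herm_smul_left a y x
  h_symm x y := by rw [Fld.frob_apply, herm_swap hF, one_mul]
  sg x := Cfsg.hermForm n F q x x = 0
  sg_smul a x h := by rw [herm_smul_left, herm_smul_right, h, mul_zero, mul_zero]
  sg_self x h := h
  sg_add x y hx hy h := by
    have h' : Cfsg.hermForm n F q x y = 0 := by
      rw [← herm_swap hF, h, zero_pow (by have := Fld.one_lt_q hF; omega)]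
    rw [herm_add_left, herm_add_right hF, herm_add_right hF, hx, hy, h, h']
    ring
  sg_adj x y hx hxy := by
    obtain ⟨s, hs⟩ := exists_trace_eq (Fld.frob_ne_id hF) (Fld.frob_frob hF) (-Cfsg.hermForm n F q y y) (by
      rw [map_neg, Fld.frob_apply, herm_swap hF])
    have hxy' : Cfsg.hermForm n F q x y ≠ 0 := by
      rw [← herm_swap hF]; exact pow_ne_zero _ hxy
    refine ⟨s * (Cfsg.hermForm n F q x y)⁻¹, ?_⟩
    rw [herm_add_left, herm_add_right hF, herm_add_right hF, herm_smul_left, herm_smul_right, herm_smul_left,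
      herm_smul_right, hx, ← herm_swap hF x y]
    have h1 : (s * (Cfsg.hermForm n F q x y)⁻¹) ^ q * Cfsg.hermForm n F q x y ^ q = s ^ q := by
      rw [← mul_pow, inv_mul_cancel_right₀ hxy']
    rw [h1, inv_mul_cancel_right₀ hxy']
    rw [Fld.frob_apply] at hs
    linear_combination hs
  nondeg x hx := by
    by_contra h0
    exact h0 (hermFrm_nondeg hF n x (fun y => hx y))

theorem herm (hF : Fintype.card F = q ^ 2) (n : ℕ) : (suP hF n).Herm where
  eps := rfl
  sg_iff _ := Iff.rfl
  tr c hc := exists_trace_eq (Fld.frob_ne_id hF) (Fld.frob_frob hF) c hc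
  nm c hc := by
    change Fld.frob hF c = c at hc
    rw [Fld.frob_apply] at hc
    obtain ⟨x, hx⟩ := Fld.exists_norm_eq hF c hc
    refine ⟨x, ?_⟩
    change x * Fld.frob hF x = c
    rw [Fld.frob_apply, ← pow_succ']
    exact hx
  ne := by
    obtain ⟨c, hc, h⟩ := exists_ker_ne hF
    exact ⟨c, hc, by change c + Fld.frob hF c = 0; rw [Fld.frob_apply]; exact h⟩
  nid := by
    by_contra hcon
    push Not at hcon
    exact Fld.frob_ne_id hF (RingHom.ext hcon)

/-- the natural representation. -/
noncomputable def suR (n : ℕ) (F : Type*) [Field F] (q : ℕ) : Cfsg.SU n F q →* Module.End F (Fin n → F) :=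
  (((Matrix.toLinAlgEquiv' : Matrix (Fin n) (Fin n) F ≃ₐ[F] _) :
    Matrix (Fin n) (Fin n) F →* Module.End F (Fin n → F)).comp
      (Matrix.SpecialLinearGroup.toGL.comp (Cfsg.SU n F q).subtype |> (Units.coeHom _).comp))

theorem suR_apply {n : ℕ} (s : Cfsg.SU n F q) (x : Fin n → F) : suR n F q s x = mat s *ᵥ x := rfl

/-- the unitary group on its polar space. -/
noncomputable def suG (hF : Fintype.card F = q ^ 2) (n : ℕ) : PolG F (Fin n → F) (Cfsg.SU n F q) where
  toPol := suP hF n
  r := suR n F q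
  r_inj s t h := by
    apply SU_ext
    intro x
    exact congrArg (fun g : Module.End F (Fin n → F) => g x) h
  r_h s x y := SU_herm s y x
  r_sg s x h := (SU_herm s x x).trans h
  exE z v w hz hv hw hzv hzw := by
    set P := suP hF n with hP
    let L : (Fin n → F) →ₗ[F] (Fin n → F) := LinearMap.id + (P.lin z).smulRight (w - v) -
      (P.lin (w - v)).smulRight z + ((P.h w v) • P.lin z).smulRight z
    have hL : ∀ x, L x = x + P.h z x • (w - v) - (P.ε * P.h (w - v) x) • z + (P.ε * P.h w v * P.h z x) • z := by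
      intro x
      change x + P.h z x • (w - v) - (P.h (w - v) x) • z + (P.h w v * P.h z x) • z = _
      rw [(herm hF n).eps, one_mul, one_mul]
    have hM : ∀ x, LinearMap.toMatrix' L *ᵥ x = L x := fun x => LinearMap.toMatrix'_mulVec L x
    have hdet : (LinearMap.toMatrix' L).det = 1 := by
      apply det_one_of_cube
      have h1 : LinearMap.toMatrix' L - 1 = LinearMap.toMatrix' (L - 1) := by
        rw [map_sub]; congr 1; exact (LinearMap.toMatrix'_id).symm
      rw [h1]
      apply ext_mulVec
      intro x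
      have h2 := siegel_cube P hz hzv hzw (fun x => ((L - 1 : Module.End F (Fin n → F))) x) (by
        intro x
        change L x - x = _
        rw [hL]; abel) x
      have h3 : (LinearMap.toMatrix' (L - 1)) ^ 3 *ᵥ x =
          (L - 1) ((L - 1) ((L - 1) x)) := by
        rw [pow_succ, pow_two, ← mulVec_mulVec, ← mulVec_mulVec, LinearMap.toMatrix'_mulVec,
          LinearMap.toMatrix'_mulVec, LinearMap.toMatrix'_mulVec]
      rw [h3, zero_mulVec]
      exact h2
    refine ⟨⟨⟨LinearMap.toMatrix' L, hdet⟩, ?_⟩, ?_⟩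
    · intro x y
      change Cfsg.hermForm n F q (LinearMap.toMatrix' L *ᵥ x) (LinearMap.toMatrix' L *ᵥ y) = _
      rw [hM, hM]
      have := (herm hF n).siegel_h hz hv hw hzv hzw y x
      rw [← hP, ← hL, ← hL] at this
      exact this
    · intro x
      rw [← hL, ← hM]
      rfl

end Cfsg.Agent.H16.PSU
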