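import Cfsg.Agent.H16_PSU1

set_option autoImplicit false

/-! The unitary groups: automorphisms are induced by semisimilarities. -/

namespace Cfsg.Agent.H16.Ps

open Module Matrix

/-- from a semilinear map to a matrix. -/
theorem exists_M {ι : Type} [Fintype ι] [DecidableEq ι] {F : Type*} [Field F] (P : Pol F (ι → F)) {σ : F ≃+* F}
    {k : F} (hk0 : k ≠ 0) {g : (ι → F) → (ι → F)} (hgadd : ∀ x y, g (x + y) = g x + g y)
    (hgsmul : ∀ (a : F) x, g (a • x) = σ a • g x) (hgh : ∀ x y, P.h (g x) (g y) = k * σ (P.h x y)) :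
    ∃ M : GL ι F, ∀ x : ι → F, (M : Matrix ι ι F) *ᵥ (fun i => σ (x i)) = g x := by
  let G : (ι → F) →ₗ[F] (ι → F) :=
    { toFun := fun x => g (fun i => σ.symm (x i))
      map_add' := by
        intro x y
        rw [← hgadd]
        congr 1
        funext i
        exact map_add _ _ _
      map_smul' := by
        intro a x
        have : (fun i => σ.symm ((a • x) i)) = (σ.symm a) • (fun i => σ.symm (x i)) := by
          funext i
          exact map_mul _ _ _
        rw [this, hgsmul, σ.apply_symm_apply]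
        rfl }
  have hGg : ∀ x, G (fun i => σ (x i)) = g x := by
    intro x
    change g _ = g x
    congr 1
    funext i
    exact σ.symm_apply_apply _
  have hginj : Function.Injective G := by
    rw [injective_iff_map_eq_zero]
    intro x hx
    have h1 : (fun i => σ.symm (x i)) = 0 := by
      refine P.nondeg _ fun y => ?_
      have h2 := hgh (fun i => σ.symm (x i)) y
      have h3 : g (fun i => σ.symm (x i)) = 0 := hx
      rw [h3, P.h_zero_left] at h2
      have h4 := (mul_eq_zero.mp h2.symm).resolve_left hk0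
      rwa [map_eq_zero] at h4
    funext i
    have := congrFun h1 i
    exact (map_eq_zero σ.symm).mp this
  have hGM : ∀ x, (LinearMap.toMatrix' G) *ᵥ x = G x := fun x => LinearMap.toMatrix'_mulVec G x
  have hdet : IsUnit (LinearMap.toMatrix' G).det := by
    rw [← Matrix.isUnit_iff_isUnit_det]
    have h1 : Function.Injective (LinearMap.toMatrix' G).mulVec := by
      intro x y h
      rw [hGM, hGM] at h
      exact hginj h
    exact Matrix.mulVec_injective_iff_isUnit.mp h1
  refine ⟨Matrix.GeneralLinearGroup.mk'' _ hdet, fun x => ?_⟩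
  change (LinearMap.toMatrix' G) *ᵥ _ = _
  rw [hGM, hGg]

end Cfsg.Agent.H16.Ps

namespace Cfsg.Agent.H16.PSU

open Matrix Cfsg.Agent.H5 Cfsg.Agent.H5.Unit Cfsg.Agent.H5.Frm Cfsg.Agent.H5.Conc Cfsg.Agent.H16.Ps Module

variable {F : Type*} [Field F] [Fintype F] {q : ℕ}

theorem suG_r {n : ℕ} (hF : Fintype.card F = q ^ 2) (s : Cfsg.SU n F q) (x : Fin n → F) :
    (suG hF n).r s x = mat s *ᵥ x := rfl

theorem suG_h {n : ℕ} (hF : Fintype.card F = q ^ 2) (x y : Fin n → F) :
    (suG hF n).h x y = Cfsg.hermForm n F q y x := rfl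

theorem rich (hF : Fintype.card F = q ^ 2) (n : ℕ) : (suG hF n).Rich := (herm hF n).rich

theorem exists_sg (hF : Fintype.card F = q ^ 2) {n : ℕ} (hn : 2 ≤ n) : ∃ x, (suG hF n).sg x ∧ x ≠ 0 :=
  (herm hF n).exists_sg (by rw [Module.finrank_fintype_fun_eq_card, Fintype.card_fin]; exact hn)

theorem span_top (hF : Fintype.card F = q ^ 2) {n : ℕ} (hn : 2 ≤ n) (x : Fin n → F) :
    x ∈ Submodule.span F {y | (suG hF n).sg y} := by
  obtain ⟨e, he, he0⟩ := exists_sg (F := F) hF hn
  exact (suG hF n).span_sg he he0 x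

/-- the projective unitary group on its polar space. -/
noncomputable def suT (hF : Fintype.card F = q ^ 2) {n : ℕ} (hn : 2 ≤ n) :
    PolT F (Fin n → F) (Cfsg.SU n F q) (Cfsg.PSU n F q) :=
  (suG hF n).toT (rich hF n) (span_top hF hn) (exists_sg hF hn)

theorem hne (hF : Fintype.card F = q ^ 2) {n : ℕ} (hn : 4 ≤ n) : ∀ v f, (suG hF n).sg v → (suG hF n).sg f →
    (suG hF n).h v f = 1 → ∃ x ∈ (suG hF n).perp v f, (suG hF n).sg x ∧ x ≠ 0 := by
  intro v f hv hf hvf
  have h1 := (suG hF n).finrank_perp hv hf hvf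
  rw [Module.finrank_fintype_fun_eq_card, Fintype.card_fin] at h1
  obtain ⟨⟨x, hx⟩, hxs, hx0⟩ := ((herm hF n).sub hv hf hvf).exists_sg (by
    change 2 ≤ finrank F ((suG hF n).perp v f)
    omega)
  exact ⟨x, hx, hxs, fun h => hx0 (Subtype.ext h)⟩

theorem hN (hF : Fintype.card F = q ^ 2) (n : ℕ) : ∀ v f, (suG hF n).sg v → (suG hF n).sg f →
    (suG hF n).h v f = 1 → ∀ x ∈ (suG hF n).perp v f, ∀ y ∈ (suG hF n).perp v f, (suG hF n).sg x →
      (suG hF n).sg y → x ≠ 0 → y ≠ 0 →
      ∃ z ∈ (suG hF n).perp v f, (suG hF n).sg z ∧ (suG hF n).h x z ≠ 0 ∧ (suG hF n).h y z ≠ 0 := by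
  intro v f hv hf hvf x hx y hy hsx hsy hx0 hy0
  obtain ⟨z, hsz, h1, h2⟩ := (((herm hF n).sub hv hf hvf).rich).common (x := ⟨x, hx⟩) (y := ⟨y, hy⟩) hsx hsy
    (fun h => hx0 (congrArg Subtype.val h)) (fun h => hy0 (congrArg Subtype.val h))
  exact ⟨z, z.2, hsz, h1, h2⟩

theorem irr (hF : Fintype.card F = q ^ 2) {n : ℕ} (hn : 3 ≤ n) : (suG hF n).Irr := by
  rcases Nat.lt_or_ge n 4 with h | h
  · intro v f hv hf hvf W hW hex
    obtain ⟨x, hx, hxW, hx0⟩ := hex
    have h1 := (suG hF n).finrank_perp hv hf hvf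
    rw [Module.finrank_fintype_fun_eq_card, Fintype.card_fin] at h1
    have h2 : finrank F ((suG hF n).perp v f) = 1 := by omega
    intro y hy
    obtain ⟨c, hc⟩ := exists_smul_eq_of_finrank_eq_one h2 (x := (⟨x, hx⟩ : (suG hF n).perp v f))
      (fun h => hx0 (congrArg Subtype.val h)) ⟨y, hy⟩
    have h3 : y = c • x := (congrArg Subtype.val hc).symm
    rw [h3]
    exact W.smul_mem c hxW
  · exact (suG hF n).irr_of (hne hF h) (hN hF n)
      ((suG hF n).mv_of_X (fun v hv hv0 => PolG.her_hX (herm hF n) v hv hv0) (hne hF h))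

theorem hrel (hF : Fintype.card F = q ^ 2) {n : ℕ} (hn : 3 ≤ n) (α : MulAut (Cfsg.PSU n F q)) (v : Fin n → F)
    (hv : (suG hF n).sg v) (hv0 : v ≠ 0) : ∃ v', (suT hF (show 2 ≤ n by omega)).Rel α v v' := by
  have : Finite (Cfsg.SU n F q) := inferInstance
  exact (suT hF (show 2 ≤ n by omega)).exists_rel_of_sylow (fun s => rfl) (PolG.big_of_rich (rich hF n))
    (fun v hv hv0 => PolG.her_hX (herm hF n) v hv hv0) (PolG.her_hcomm (P := suG hF n) (herm hF n))
    (irr hF hn) α hv hv0

/-- field facts: the subfield generated by the torus characters. -/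
theorem hgen (hF : Fintype.card F = q ^ 2) (hq : q ≠ 2) (K : Subfield F)
    (hK : ∀ t : F, t ≠ 0 → Fld.frob hF t ^ 2 * t⁻¹ ∈ K) : K = ⊤ := by
  by_contra hne
  have hq1 := Fld.one_lt_q hF
  -- the homomorphism
  let χ : Fˣ →* Fˣ :=
    { toFun := fun t => Units.map (Fld.frob hF : F →* F) t ^ 2 * t⁻¹
      map_one' := by simp
      map_mul' := fun a b => by rw [map_mul, mul_pow, mul_inv]; exact mul_mul_mul_comm _ _ _ _ }
  have hker : Nat.card χ.ker ≤ 3 := by
    have h1 : χ.ker ≤ (powMonoidHom 3 : Fˣ →* Fˣ).ker := by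
      intro t ht
      rw [MonoidHom.mem_ker] at ht ⊢
      have h2 : (Units.map (Fld.frob hF : F →* F) t) ^ 2 = t := by
        have : Units.map (Fld.frob hF : F →* F) t ^ 2 * t⁻¹ = 1 := ht
        exact mul_inv_eq_one.mp this
      have h3 : Fld.frob hF (t : F) ^ 2 = t := congrArg Units.val h2
      have h4 : (t : F) ^ 2 = Fld.frob hF (t : F) := by
        have := congrArg (Fld.frob hF) h3
        rwa [map_pow, Fld.frob_frob] at this
      rw [powMonoidHom_apply]
      apply Units.ext
      have h5 : (t : F) * ((t : F) ^ 3) = (t : F) * 1 := by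
        rw [mul_one, ← pow_succ', show (3 + 1) = 2 * 2 from rfl, pow_mul, h4, h3]
      rw [Units.val_pow_eq_pow_val, Units.val_one]
      exact mul_left_cancel₀ t.ne_zero h5
    refine (Nat.card_le_card_of_injective _ (Subgroup.inclusion_injective h1)).trans ?_
    rw [IsCyclic.card_powMonoidHom_ker]
    exact Nat.gcd_le_right _ (by norm_num)
  have hrange : Nat.card χ.range ≤ Nat.card K - 1 := by
    have h1 : Nat.card Kˣ = Nat.card K - 1 := by
      have : Fintype K := Fintype.ofFinite K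
      classical
      rw [Nat.card_eq_fintype_card, Nat.card_eq_fintype_card, Fintype.card_units]
    rw [← h1]
    have h2 : ∀ t : χ.range, ∃ u : Kˣ, ((u : K) : F) = ((t : Fˣ) : F) := by
      rintro ⟨_, t, rfl⟩
      have h3 : ((χ t : Fˣ) : F) ∈ K := by
        have := hK t t.ne_zero
        have e : ((χ t : Fˣ) : F) = Fld.frob hF t ^ 2 * (t : F)⁻¹ := by
          change (((Units.map (Fld.frob hF : F →* F) t) ^ 2 * t⁻¹ : Fˣ) : F) = _
          rw [Units.val_mul, Units.val_pow_eq_pow_val, Units.val_inv_eq_inv_val]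
          rfl
        rwa [e]
      exact ⟨Units.mk0 ⟨_, h3⟩ (fun h => (χ t).ne_zero (congrArg Subtype.val h)), rfl⟩
    choose u hu using h2
    refine Nat.card_le_card_of_injective u ?_
    intro a b hab
    apply Subtype.ext
    apply Units.ext
    rw [← hu, ← hu, hab]
  have hprod : Nat.card χ.ker * Nat.card χ.range = (q - 1) * (q + 1) := by
    rw [← Fld.card_units_sq hF, ← Subgroup.card_mul_index χ.ker, Subgroup.index_ker]
  -- size of K
  have hKq : Nat.card K ≤ q := by
    have h1 : Nat.card F = Nat.card K ^ finrank K F := Module.natCard_eq_pow_finrank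
    have h2 : 2 ≤ finrank K F := by
      by_contra hlt
      have h3 : 0 < finrank K F := Module.finrank_pos
      have h4 : finrank K F = 1 := by omega
      rw [h4, pow_one] at h1
      apply hne
      have h5 := (Nat.bijective_iff_injective_and_card (Subtype.val : K → F)).mpr ⟨Subtype.val_injective, h1.symm⟩
      rw [eq_top_iff]
      intro x _
      obtain ⟨y, rfl⟩ := h5.2 x
      exact y.2
    have h3 : Nat.card K ^ 2 ≤ q ^ 2 := by
      rw [← hF, ← Nat.card_eq_fintype_card, h1]
      exact Nat.pow_le_pow_right Nat.card_pos h2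
    exact (Nat.pow_le_pow_iff_left (by norm_num)).mp h3
  have h5 : (q - 1) * (q + 1) ≤ 3 * (q - 1) := by
    rw [← hprod]
    exact Nat.mul_le_mul hker (hrange.trans (by omega))
  have h6 : q + 1 ≤ 3 := by
    have h7 : 0 < q - 1 := by omega
    rw [mul_comm] at h5
    exact Nat.le_of_mul_le_mul_right h5 h7
  omega

theorem hnt (hF : Fintype.card F = q ^ 2) (hq : q ≠ 2) : ∃ t : F, t * Fld.frob hF t = 1 ∧
    Fld.frob hF t ^ 2 * t⁻¹ ≠ 1 := by
  have hq1 := Fld.one_lt_q hF
  have h1 : ¬ ((powMonoidHom (q + 1) : Fˣ →* Fˣ).ker ≤ (powMonoidHom 3 : Fˣ →* Fˣ).ker) := by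
    intro h
    have h2 := Nat.card_le_card_of_injective _ (Subgroup.inclusion_injective h)
    rw [Fld.card_norm_ker hF, IsCyclic.card_powMonoidHom_ker] at h2
    have h3 : (Nat.card Fˣ).gcd 3 ≤ 3 := Nat.gcd_le_right _ (by norm_num)
    omega
  rw [SetLike.not_le_iff_exists] at h1
  obtain ⟨t, ht, ht'⟩ := h1
  have h2 : (t : F) * Fld.frob hF (t : F) = 1 := by
    rw [Fld.frob_apply, ← pow_succ']
    rw [MonoidHom.mem_ker, powMonoidHom_apply] at ht
    exact congrArg Units.val ht
  refine ⟨t, h2, ?_⟩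
  intro h3
  apply ht'
  rw [MonoidHom.mem_ker, powMonoidHom_apply]
  apply Units.ext
  have h4 : Fld.frob hF (t : F) = (t : F)⁻¹ := eq_inv_of_mul_eq_one_right h2
  rw [h4] at h3
  rw [Units.val_pow_eq_pow_val, Units.val_one]
  have h5 := t.ne_zero
  field_simp at h3
  exact h3.symm

end Cfsg.Agent.H16.PSU
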