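import Cfsg.Agent.H16_PSU2

set_option autoImplicit false

/-! The unitary groups: the automorphism theorem. -/

namespace Cfsg.Agent.H16.PSU

open Matrix Cfsg.Agent.H5 Cfsg.Agent.H5.Unit Cfsg.Agent.H5.Frm Cfsg.Agent.H5.Conc Cfsg.Agent.H16.Ps Module

variable {F : Type*} [Field F] [Fintype F] {q : ℕ}

theorem final4 (hF : Fintype.card F = q ^ 2) {n : ℕ} (hn : 4 ≤ n) (α : MulAut (Cfsg.PSU n F q)) :
    ∃ (M : GL (Fin n) F) (σ : F ≃+* F) (k : F), k ≠ 0 ∧
      (∀ x y, (suG hF n).h ((M : Matrix (Fin n) (Fin n) F) *ᵥ (fun i => σ (x i)))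
        ((M : Matrix (Fin n) (Fin n) F) *ᵥ (fun i => σ (y i))) = k * σ ((suG hF n).h x y)) ∧
      ∀ s s', (suT hF (show 2 ≤ n by omega)).pm s' = α ((suT hF (show 2 ≤ n by omega)).pm s) →
        ∃ c : F, c ≠ 0 ∧ ∀ x, (suG hF n).r s' ((M : Matrix (Fin n) (Fin n) F) *ᵥ (fun i => σ (x i))) =
          c • ((M : Matrix (Fin n) (Fin n) F) *ᵥ (fun i => σ ((suG hF n).r s x i))) := by
  have hP := herm hF n
  obtain ⟨M, σ, k, hk, h1, -, h3⟩ := PolT.final (P := suT hF (show 2 ≤ n by omega)) (α := α) (rich hF n)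
    (hne hF hn) (hN hF n) (by
      intro e f he hf hef a ha
      right
      intro x₁ _ x₂ _ hs₁ hs₂ h12
      have h1 := (hP.sg_add_iff hf ((suG hF n).sg_smul a e he)).mp ha
      have h1' : (suP hF n).h f (a • e) = a := by
        rw [(suP hF n).h_smul_right]
        have : (suP hF n).h f e = (suP hF n).ε := (suG hF n).h_fe hef
        rw [this, hP.eps, mul_one]
      rw [h1'] at h1
      refine (hP.sg_add_iff hs₁ hs₂).mpr ?_
      have h12' : (suP hF n).h x₁ x₂ = -a := by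
        refine h12.trans ?_
        change -((suP hF n).ε * a) = -a
        rw [hP.eps, one_mul]
      rw [h12', map_neg]
      linear_combination -h1)
    (fun e f e' f' D x hx y hy hsx hsy hxy a m h => D.her_hE hP hx hy hsx hsy hxy a m h)
    (fun v hv hv0 => hrel hF (by omega) α v hv hv0) (fun v hv hv0 => hrel hF (by omega) α⁻¹ v hv hv0)
    (exists_sg hF (by omega))
  exact ⟨M, σ, k, hk, h1, h3⟩

section three

variable (hF : Fintype.card F = q ^ 2)

theorem rank1 {e f : Fin 3 → F} (he : (suG hF 3).sg e) (hf : (suG hF 3).sg f) (hef : (suG hF 3).h e f = 1) :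
    ∃ w ∈ (suG hF 3).perp e f, w ≠ 0 ∧ ∀ v ∈ (suG hF 3).perp e f, v ≠ 0 → ∀ u ∈ (suG hF 3).perp e f,
      ∃ a : F, u = a • v := by
  have h1 := (suG hF 3).finrank_perp he hf hef
  rw [Module.finrank_fintype_fun_eq_card, Fintype.card_fin] at h1
  have h2 : finrank F ((suG hF 3).perp e f) = 1 := by omega
  have h3 : Nontrivial ((suG hF 3).perp e f) := Module.nontrivial_of_finrank_pos (R := F) (by omega)
  obtain ⟨⟨w, hw⟩, hw0⟩ := exists_ne (0 : (suG hF 3).perp e f)
  refine ⟨w, hw, fun h => hw0 (Subtype.ext h), fun v hv hv0 u hu => ?_⟩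
  obtain ⟨c, hc⟩ := exists_smul_eq_of_finrank_eq_one h2 (x := (⟨v, hv⟩ : (suG hF 3).perp e f))
      (fun h => hv0 (congrArg Subtype.val h)) ⟨u, hu⟩
  exact ⟨c, (congrArg Subtype.val hc).symm⟩

theorem rk1 {e f : Fin 3 → F} (he : (suG hF 3).sg e) (hf : (suG hF 3).sg f) (hef : (suG hF 3).h e f = 1)
    (x : Fin 3 → F) (hx : (suG hF 3).sg x) (hex : (suG hF 3).h e x = 0) : x = 0 ∨ Sim F e x := by
  have h1 := (suG hF 3).eq_prj e f x
  rw [hex, zero_smul, add_zero] at h1
  set w := (suG hF 3).prj e f x with hw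
  have hwm := (suG hF 3).prj_mem he hf hef x
  rw [← hw] at hwm
  have hw0 : w = 0 := by
    by_contra hne
    have h2 : (suG hF 3).h w w = 0 := by
      have h3 := (suG hF 3).sg_self x hx
      rw [h1, (suG hF 3).h_add_left, (suG hF 3).h_add_right, (suG hF 3).h_add_right, (suG hF 3).h_smul_left,
        (suG hF 3).h_smul_left, (suG hF 3).h_smul_right, (suG hF 3).h_smul_right, (suG hF 3).sg_self e he, hwm.1,
        (suG hF 3).h_comm_zero.mp hwm.1] at h3
      simpa using h3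
    obtain ⟨-, -, -, h4⟩ := rank1 hF he hf hef
    have h5 := ((suG hF 3).sub he hf hef).nondeg ⟨w, hwm⟩ (by
      rintro ⟨y, hy⟩
      change (suG hF 3).h w y = 0
      obtain ⟨a, rfl⟩ := h4 w hwm hne y hy
      rw [(suG hF 3).h_smul_right, h2, mul_zero])
    exact hne (congrArg Subtype.val h5)
  rw [hw0, add_zero] at h1
  by_cases hx0 : x = 0
  · exact Or.inl hx0
  · exact Or.inr (sim_of_eq_smul h1 hx0)

theorem det_eig {e f w : Fin 3 → F} (he : (suG hF 3).sg e) (hf : (suG hF 3).sg f) (hef : (suG hF 3).h e f = 1)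
    (hw : w ∈ (suG hF 3).perp e f) (hw0 : w ≠ 0) {L : (Fin 3 → F) →ₗ[F] (Fin 3 → F)} {a b c : F}
    (h1 : L e = a • e) (h2 : L f = b • f) (h3 : L w = c • w) : LinearMap.det L = a * b * c := by
  have hli : LinearIndependent F ![e, f, w] := by
    rw [Fintype.linearIndependent_iff]
    intro g hg
    rw [Fin.sum_univ_three] at hg
    simp only [Matrix.cons_val_zero, Matrix.cons_val_one, Matrix.cons_val_two, Matrix.head_cons,
      Matrix.tail_cons] at hg
    change g 0 • e + g 1 • f + g 2 • w = 0 at hg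
    have e1 : g 1 = 0 := by
      have := congrArg ((suG hF 3).h e) hg
      rw [(suG hF 3).h_zero_right, (suG hF 3).h_add_right, (suG hF 3).h_add_right, (suG hF 3).h_smul_right,
        (suG hF 3).h_smul_right, (suG hF 3).h_smul_right, (suG hF 3).sg_self e he, hef, hw.1] at this
      simpa using this
    have e0 : g 0 = 0 := by
      have := congrArg ((suG hF 3).h f) hg
      rw [(suG hF 3).h_zero_right, (suG hF 3).h_add_right, (suG hF 3).h_add_right, (suG hF 3).h_smul_right,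
        (suG hF 3).h_smul_right, (suG hF 3).h_smul_right, (suG hF 3).sg_self f hf, (suG hF 3).h_fe hef, hw.2] at this
      have h5 : g 0 * (suG hF 3).ε = 0 := by simpa using this
      exact (mul_eq_zero.mp h5).resolve_right (suG hF 3).eps_ne
    rw [e0, e1, zero_smul, zero_smul, zero_add, zero_add] at hg
    have e2 := (smul_eq_zero.mp hg).resolve_right hw0
    intro i
    fin_cases i
    · exact e0
    · exact e1
    · exact e2
  let B := basisOfLinearIndependentOfCardEqFinrank hli (by simp)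
  have hB : ⇑B = ![e, f, w] := coe_basisOfLinearIndependentOfCardEqFinrank hli (by simp)
  have hB0 : B 0 = e := by rw [hB]; rfl
  have hB1 : B 1 = f := by rw [hB]; rfl
  have hB2 : B 2 = w := by rw [hB]; rfl
  have hM : LinearMap.toMatrix B B L = Matrix.diagonal ![a, b, c] := by
    ext i j
    rw [LinearMap.toMatrix_apply]
    fin_cases j
    · change B.repr (L (B 0)) i = _
      rw [hB0, h1, ← hB0, map_smul, B.repr_self]
      fin_cases i <;> simp [Matrix.diagonal_apply]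
    · change B.repr (L (B 1)) i = _
      rw [hB1, h2, ← hB1, map_smul, B.repr_self]
      fin_cases i <;> simp [Matrix.diagonal_apply]
    · change B.repr (L (B 2)) i = _
      rw [hB2, h3, ← hB2, map_smul, B.repr_self]
      fin_cases i <;> simp [Matrix.diagonal_apply]
  rw [← LinearMap.det_toMatrix B, hM, Matrix.det_diagonal, Fin.prod_univ_three]
  rfl

/-- torus elements exist. -/
theorem exists_tor {e f : Fin 3 → F} (he : (suG hF 3).sg e) (hf : (suG hF 3).sg f) (hef : (suG hF 3).h e f = 1)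
    (t : F) (ht : t ≠ 0) : ∃ s, (suT hF (show 2 ≤ 3 by omega)).Tor e f t s := by
  set P := suG hF 3 with hP
  have hb : P.bar t ≠ 0 := P.bar_ne_zero ht
  let L : (Fin 3 → F) →ₗ[F] (Fin 3 → F) :=
    { toFun := fun x => (t * (P.ε * P.h f x)) • e + ((P.bar t)⁻¹ * P.h e x) • f + (P.bar t * t⁻¹) • P.prj e f x
      map_add' := fun x y => by
        simp only [P.h_add_right, P.prj_add, mul_add, add_smul, smul_add]
        abel
      map_smul' := fun a x => by
        simp only [P.h_smul_right, P.prj_smul, RingHom.id_apply, smul_add, smul_smul]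
        have e1 : t * (P.ε * (a * P.h f x)) = a * (t * (P.ε * P.h f x)) := by ring
        have e2 : (P.bar t)⁻¹ * (a * P.h e x) = a * ((P.bar t)⁻¹ * P.h e x) := by ring
        have e3 : P.bar t * t⁻¹ * a = a * (P.bar t * t⁻¹) := by ring
        rw [e1, e2, e3] }
  have hL : ∀ x, L x = (t * (P.ε * P.h f x)) • e + ((P.bar t)⁻¹ * P.h e x) • f + (P.bar t * t⁻¹) • P.prj e f x :=
    fun x => rfl
  have h1 : L e = t • e := by
    rw [hL, P.h_fe hef, P.eps_mul, P.sg_self e he, P.prj_e he hf hef]; simp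
  have h2 : L f = (P.bar t)⁻¹ • f := by
    rw [hL, P.sg_self f hf, hef, P.prj_f hf hef]; simp
  have h3 : ∀ w ∈ P.perp e f, L w = (P.bar t * t⁻¹) • w := by
    intro w hw
    rw [hL, hw.1, hw.2, P.prj_of_mem hw.1 hw.2]; simp
  obtain ⟨w, hw, hw0, -⟩ := rank1 hF he hf hef
  have hdet : LinearMap.det L = 1 := by
    rw [det_eig hF he hf hef hw hw0 h1 h2 (h3 w hw)]
    field_simp
  have hform : ∀ x y, P.h (L x) (L y) = P.h x y := by
    intro x y
    have hx := P.prj_mem he hf hef x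
    have hy := P.prj_mem he hf hef y
    have h1 : P.h x y = P.bar (P.ε * P.h f x) * P.h e y + P.ε * (P.bar (P.h e x) * (P.ε * P.h f y)) +
        P.h (P.prj e f x) (P.prj e f y) := by
      conv_lhs => rw [P.eq_prj e f x, P.eq_prj e f y]
      simp only [P.h_add_left, P.h_add_right, P.h_smul_left, P.h_smul_right, P.sg_self e he,
        P.sg_self f hf, hef, P.h_fe hef, hx.1, hx.2, hy.1, hy.2, P.h_comm_zero.mp hx.1,
        P.h_comm_zero.mp hx.2]
      ring
    rw [hL, hL, h1]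
    simp only [P.h_add_left, P.h_add_right, P.h_smul_left, P.h_smul_right, P.sg_self e he,
        P.sg_self f hf, hef, P.h_fe hef, hx.1, hx.2, hy.1, hy.2, P.h_comm_zero.mp hx.1,
        P.h_comm_zero.mp hx.2, map_mul, map_inv₀, P.bar_bar]
    field_simp
    ring
  have hM : ∀ x, LinearMap.toMatrix' L *ᵥ x = L x := fun x => LinearMap.toMatrix'_mulVec L x
  have hdet' : (LinearMap.toMatrix' L).det = 1 := by rw [LinearMap.det_toMatrix', hdet]
  let s : Cfsg.SU 3 F q := ⟨⟨LinearMap.toMatrix' L, hdet'⟩, by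
    intro x y
    change Cfsg.hermForm 3 F q (LinearMap.toMatrix' L *ᵥ x) (LinearMap.toMatrix' L *ᵥ y) = _
    rw [hM, hM]
    exact hform y x⟩
  have hs : ∀ x, P.r s x = L x := fun x => hM x
  exact ⟨s, (hs e).trans h1, (hs f).trans h2, fun w hw => (hs w).trans (h3 w hw)⟩

/-- elements fixing two opposite points are torus elements. -/
theorem tor_of_fix {e f : Fin 3 → F} (he : (suG hF 3).sg e) (hf : (suG hF 3).sg f) (hef : (suG hF 3).h e f = 1)
    {s : Cfsg.SU 3 F q} (hse : Sim F e ((suG hF 3).r s e)) (hsf : Sim F f ((suG hF 3).r s f)) :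
    ∃ t : F, t ≠ 0 ∧ (suT hF (show 2 ≤ 3 by omega)).Tor e f t s := by
  set P := suG hF 3 with hP
  obtain ⟨a, ha, h1⟩ := hse
  obtain ⟨b, hb, h2⟩ := hsf
  have hab : P.bar a * b = 1 := by
    have := P.r_h s e f
    rw [h1, h2, P.h_smul_left, P.h_smul_right, hef, mul_one] at this
    exact this
  have hba := P.bar_ne_zero ha
  have hb' : b = (P.bar a)⁻¹ := eq_inv_of_mul_eq_one_right hab
  obtain ⟨w, hw, hw0, h1d⟩ := rank1 hF he hf hef
  have hsw : P.r s w ∈ P.perp e f := by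
    constructor
    · have h3 := P.r_h s e w
      rw [h1, P.h_smul_left, hw.1] at h3
      exact (mul_eq_zero.mp h3).resolve_left hba
    · have h3 := P.r_h s f w
      rw [h2, P.h_smul_left, hw.2] at h3
      exact (mul_eq_zero.mp h3).resolve_left (P.bar_ne_zero hb)
  obtain ⟨c, hc⟩ := h1d w hw hw0 _ hsw
  have hdet : LinearMap.det (P.r s) = 1 := by
    have : LinearMap.det (Matrix.toLin' (mat s)) = 1 := by
      rw [LinearMap.det_toLin']
      exact (s : Matrix.SpecialLinearGroup (Fin 3) F).2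
    exact this
  rw [det_eig hF he hf hef hw hw0 h1 h2 hc] at hdet
  have hc' : c = P.bar a * a⁻¹ := by
    rw [hb'] at hdet
    field_simp at hdet ⊢
    linear_combination hdet
  refine ⟨a, ha, h1, ?_, fun v hv => ?_⟩
  · change P.r s f = (P.bar a)⁻¹ • f
    rw [← hb']; exact h2
  · obtain ⟨d, rfl⟩ := h1d w hw hw0 v hv
    change P.r s (d • w) = (P.bar a * a⁻¹) • (d • w)
    rw [P.r_smul, hc, hc', smul_comm]

end three

theorem final3 (hF : Fintype.card F = q ^ 2) (hq : q ≠ 2) (α : MulAut (Cfsg.PSU 3 F q)) :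
    ∃ (M : GL (Fin 3) F) (σ : F ≃+* F) (k : F), k ≠ 0 ∧
      (∀ x y, (suG hF 3).h ((M : Matrix (Fin 3) (Fin 3) F) *ᵥ (fun i => σ (x i)))
        ((M : Matrix (Fin 3) (Fin 3) F) *ᵥ (fun i => σ (y i))) = k * σ ((suG hF 3).h x y)) ∧
      ∀ s s', (suT hF (show 2 ≤ 3 by omega)).pm s' = α ((suT hF (show 2 ≤ 3 by omega)).pm s) →
        ∃ c : F, c ≠ 0 ∧ ∀ x, (suG hF 3).r s' ((M : Matrix (Fin 3) (Fin 3) F) *ᵥ (fun i => σ (x i))) =
          c • ((M : Matrix (Fin 3) (Fin 3) F) *ᵥ (fun i => σ ((suG hF 3).r s x i))) := by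
  have hP := herm hF 3
  set P := suT hF (show 2 ≤ 3 by omega) with hPdef
  have hB : P.Big := PolG.big_of_rich (rich hF 3)
  obtain ⟨e, he, he0⟩ := exists_sg (F := F) hF (show 2 ≤ 3 by omega)
  obtain ⟨f, hf, hef⟩ := P.exists_opp he he0
  have hf0 : f ≠ 0 := by rintro rfl; rw [P.h_zero_right] at hef; exact zero_ne_one hef
  obtain ⟨e', he'⟩ := hrel hF (show 3 ≤ 3 from le_rfl) α e he he0
  obtain ⟨f₁, hf₁⟩ := hrel hF (show 3 ≤ 3 from le_rfl) α f hf hf0
  have h1 : P.h e' f₁ ≠ 0 := by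
    intro h
    have := (he'.perp hB hf₁).mpr h
    rw [hef] at this
    exact one_ne_zero this
  have hf' : P.Rel α f ((P.h e' f₁)⁻¹ • f₁) := hf₁.sim (Sim.refl _) (Sim.smul (inv_ne_zero h1))
  have hef' : P.h e' ((P.h e' f₁)⁻¹ • f₁) = 1 := by rw [P.h_smul_right, inv_mul_cancel₀ h1]
  set f' := (P.h e' f₁)⁻¹ • f₁ with hf'def
  have hXi : ∀ (α : MulAut (Cfsg.PSU 3 F q)) {e e' : Fin 3 → F}, P.Rel α e e' →
      ∀ t ∈ P.Q e, ∀ t' ∈ P.Q e', P.pm t' = α (P.pm t) → t ∈ P.X e → t' ∈ P.X e' := by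
    intro α e e' he t ht t' ht' htt hX
    refine PolG.her_hcomm (P := suG hF 3) hP e' he.sg' he.ne' t' ht' fun s' hs' => ?_
    obtain ⟨s, hs, hss⟩ : ∃ s ∈ P.Q e, α (P.pm s) = P.pm s' := by
      have h2 : P.pm s' ∈ P.QT e' := ⟨s', hs', rfl⟩
      obtain ⟨u, hu⟩ := α.surjective (P.pm s')
      rw [← hu, ← he.iff] at h2
      obtain ⟨s, hs, h3⟩ := h2
      exact ⟨s, hs, by rw [h3, hu]⟩
    have h3 := P.X_comm he.sg he.ne hX hs.1
    refine P.Q_lift he.sg' he.ne' (mul_mem ht' hs') (mul_mem hs' ht') ?_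
    rw [map_mul, map_mul, htt, ← hss, ← map_mul, ← map_mul, ← map_mul, ← map_mul, h3]
  have D : P.Setup1 α e f e' f' := by
    refine ⟨hB, he', hf', hef, hef', fun t ht t' ht' htt => ⟨hXi α he' t ht t' ht' htt, fun h => ?_⟩,
      rk1 hF he hf hef⟩
    exact hXi α⁻¹ he'.inv t' ht' t ht (by rw [htt]; exact (α.symm_apply_apply _).symm) h
  obtain ⟨w₀, hw₀, hw0, h1d⟩ := rank1 hF he hf hef
  obtain ⟨-, -, -, h1d'⟩ := rank1 hF he'.sg' hf'.sg' hef'
  obtain ⟨σ, k, hA, hk0, hkb, hkh, hco⟩ := D.torus hP (by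
    intro t ht
    obtain ⟨s, hs⟩ := exists_tor hF he hf hef t ht
    obtain ⟨s', hs'⟩ := P.pm_surj (α (P.pm s))
    have hbt := P.bar_ne_zero ht
    have h2 : Sim F e' ((suG hF 3).r s' e') := by
      have h3 := he'.act hs'
      exact PolT.Rel.uniq hB he' (h3.sim (Sim.symm ⟨t, ht, hs.1⟩) (Sim.refl _))
    have h3 : Sim F f' ((suG hF 3).r s' f') := by
      have h3 := hf'.act hs'
      exact PolT.Rel.uniq hB hf' (h3.sim (Sim.symm ⟨_, inv_ne_zero hbt, hs.2.1⟩) (Sim.refl _))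
    obtain ⟨t', ht', h4⟩ := tor_of_fix hF he'.sg' hf'.sg' hef' h2 h3
    exact ⟨s, s', t', ht', hs', hs, h4⟩) hw₀ hw0 (fun u hu => h1d w₀ hw₀ hw0 u hu) h1d'
    (hgen hF hq) (hnt hF hq)
  have hσ : ∀ a, σ (P.bar a) = P.bar (σ a) := bar_comm P.bar σ
  obtain ⟨M, hM⟩ := exists_M P.toPol (σ := σ) hk0 (g := PolT.Setup.g P α e f e' f' σ k) (D.g_add k)
    (D.g_smul hA k) (D.g_h hσ hkb hkh)
  refine ⟨M, σ, k, hk0, fun x y => ?_, fun s s' h => ?_⟩
  · rw [hM, hM]
    exact D.g_h hσ hkb hkh x y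
  · obtain ⟨c, hc, h2⟩ := D.main hσ hA hk0 hkb hkh hco
      (fun x y hx hy h1 h2 => Pol.Rich.common (rich hF 3) hx hy h1 h2) (span_top hF (show 2 ≤ 3 by omega)) h
    refine ⟨c, hc, fun x => ?_⟩
    have h3 := hM ((suG hF 3).r s x)
    rw [hM, h3]
    exact h2 x

theorem final (hF : Fintype.card F = q ^ 2) {n : ℕ} (hn : 3 ≤ n) (hs : ¬ (n = 3 ∧ q = 2))
    (α : MulAut (Cfsg.PSU n F q)) :
    ∃ (M : GL (Fin n) F) (σ : F ≃+* F) (k : F), k ≠ 0 ∧
      (∀ x y, (suG hF n).h ((M : Matrix (Fin n) (Fin n) F) *ᵥ (fun i => σ (x i)))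
        ((M : Matrix (Fin n) (Fin n) F) *ᵥ (fun i => σ (y i))) = k * σ ((suG hF n).h x y)) ∧
      ∀ s s', (suT hF (show 2 ≤ n by omega)).pm s' = α ((suT hF (show 2 ≤ n by omega)).pm s) →
        ∃ c : F, c ≠ 0 ∧ ∀ x, (suG hF n).r s' ((M : Matrix (Fin n) (Fin n) F) *ᵥ (fun i => σ (x i))) =
          c • ((M : Matrix (Fin n) (Fin n) F) *ᵥ (fun i => σ ((suG hF n).r s x i))) := by
  rcases Nat.lt_or_ge n 4 with h | h
  · have hn3 : n = 3 := by omega
    subst hn3
    exact final3 hF (fun h => hs ⟨rfl, h⟩) α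
  · exact final4 hF h α

end Cfsg.Agent.H16.PSU
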