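import Cfsg.Agent.H16_PSU3
import Cfsg.Agent.H16_GamT
import Cfsg.Agent.H16_PSp2

set_option autoImplicit false

/-! The unitary family: semilinear group, automorphisms. -/

namespace Cfsg.Agent.H16.PSU

open Matrix Cfsg.Agent.H5 Cfsg.Agent.H5.Unit Cfsg.Agent.H5.Frm Cfsg.Agent.H5.Conc Cfsg.Agent.H16.Ps Cfsg.Agent.H16.Gam
  Cfsg.Agent.H16.AutL Cfsg.Agent.H16.AutG Cfsg.Agent.H16.Desc Module

variable {F : Type*} [Field F] [Fintype F] {q n : ℕ}

theorem form_map {F F' : Type*} [Field F] [Field F'] {q n : ℕ} (σ : F →+* F') (x y : Fin n → F) :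
    Cfsg.hermForm n F' q (fun i => σ (x i)) (fun i => σ (y i)) = σ (Cfsg.hermForm n F q x y) := by
  simp only [Cfsg.hermForm, map_sum, map_mul, map_pow]

/-- `SU → GL`. -/
def toG (n : ℕ) (F : Type*) [Field F] (q : ℕ) : Cfsg.SU n F q →* GL (Fin n) F :=
  Matrix.SpecialLinearGroup.toGL.comp (Cfsg.SU n F q).subtype

theorem toG_coe (s : Cfsg.SU n F q) : ((toG n F q s : GL (Fin n) F) : Matrix (Fin n) (Fin n) F) = mat s := rfl

theorem toG_inj : Function.Injective (toG n F q) := by
  intro s t h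
  apply SU_ext
  intro x
  have := congrArg (fun g : GL (Fin n) F => (g : Matrix (Fin n) (Fin n) F) *ᵥ x) h
  exact this

/-- the similarity group. -/
def CGU (n : ℕ) (F : Type*) [Field F] (q : ℕ) : Subgroup (GL (Fin n) F) := Cfsg.Geo.similarityGroup (Cfsg.hermForm n F q)

theorem mem_CGU {F : Type*} [Field F] {q n : ℕ} {g : GL (Fin n) F} : g ∈ CGU n F q ↔ ∃ c : Fˣ, ∀ u v, Cfsg.hermForm n F q
    ((g : Matrix (Fin n) (Fin n) F) *ᵥ u) ((g : Matrix (Fin n) (Fin n) F) *ᵥ v) =
      (c : F) * Cfsg.hermForm n F q u v := Iff.rfl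

theorem mem_GU {F : Type*} [Field F] {q n : ℕ} {g : GL (Fin n) F} : g ∈ Cfsg.GU n F q ↔ ∀ u v, Cfsg.hermForm n F q
    ((g : Matrix (Fin n) (Fin n) F) *ᵥ u) ((g : Matrix (Fin n) (Fin n) F) *ᵥ v) =
      Cfsg.hermForm n F q u v := Iff.rfl

theorem GU_le_CGU : Cfsg.GU n F q ≤ CGU n F q := fun g hg => ⟨1, fun u v => by rw [Units.val_one, one_mul]; exact hg u v⟩

theorem exists_toG {g : GL (Fin n) F} (hg : g ∈ Cfsg.GU n F q) (hd : Matrix.GeneralLinearGroup.det g = 1) :
    ∃ s, toG n F q s = g := by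
  refine ⟨⟨⟨g, congrArg Units.val hd⟩, fun u v => hg u v⟩, Units.ext rfl⟩

theorem toG_mem (s : Cfsg.SU n F q) : toG n F q s ∈ Cfsg.GU n F q := fun u v => SU_herm s u v

theorem toG_det (s : Cfsg.SU n F q) : Matrix.GeneralLinearGroup.det (toG n F q s) = 1 :=
  Units.ext s.1.2

theorem map_mulVec' {ι F : Type*} [Fintype ι] [DecidableEq ι] [Field F] (σ : F ≃+* F) (g : GL ι F) (v : ι → F) :
    ((gσ σ g : GL ι F) : Matrix ι ι F) *ᵥ (fun i => σ (v i)) =
      fun i => σ (((g : Matrix ι ι F) *ᵥ v) i) := by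
  funext i
  rw [gσ_coe]
  simp only [Matrix.mulVec, dotProduct, map_sum, map_mul, Matrix.map_apply]

theorem exists_map {ι F : Type*} [Field F] (σ : F ≃+* F) (u : ι → F) : ∃ x : ι → F, u = fun i => σ (x i) :=
  ⟨fun i => σ.symm (u i), funext fun i => (σ.apply_symm_apply _).symm⟩

theorem gσ_mem (σ : F ≃+* F) {g : GL (Fin n) F} (hg : g ∈ CGU n F q) : gσ σ g ∈ CGU n F q := by
  obtain ⟨c, hc⟩ := hg
  refine ⟨Units.map (σ : F →* F) c, fun u v => ?_⟩
  obtain ⟨x, rfl⟩ := exists_map σ u
  obtain ⟨y, rfl⟩ := exists_map σ v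
  rw [map_mulVec', map_mulVec']
  have h1 := form_map (σ : F →+* F) (q := q) ((g : Matrix (Fin n) (Fin n) F) *ᵥ x) ((g : Matrix (Fin n) (Fin n) F) *ᵥ y)
  have h2 := form_map (σ : F →+* F) (q := q) x y
  refine h1.trans ?_
  rw [hc]
  change σ _ = _ * Cfsg.hermForm n F q (fun i => σ (x i)) (fun i => σ (y i))
  rw [map_mul]
  congr 1
  exact h2.symm

theorem gσ_mem_GU (σ : F ≃+* F) {g : GL (Fin n) F} (hg : g ∈ Cfsg.GU n F q) : gσ σ g ∈ Cfsg.GU n F q := by
  intro u v
  obtain ⟨x, rfl⟩ := exists_map σ u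
  obtain ⟨y, rfl⟩ := exists_map σ v
  change Cfsg.hermForm n F q (((gσ σ g : GL (Fin n) F) : Matrix (Fin n) (Fin n) F) *ᵥ _)
    (((gσ σ g : GL (Fin n) F) : Matrix (Fin n) (Fin n) F) *ᵥ _) = _
  rw [map_mulVec', map_mulVec']
  have h1 := form_map (σ : F →+* F) (q := q) ((g : Matrix (Fin n) (Fin n) F) *ᵥ x) ((g : Matrix (Fin n) (Fin n) F) *ᵥ y)
  have h2 := form_map (σ : F →+* F) (q := q) x y
  refine h1.trans ?_
  rw [mem_GU.mp hg]
  exact h2.symm

theorem gσ_det (σ : F ≃+* F) {g : GL (Fin n) F} (hg : Matrix.GeneralLinearGroup.det g = 1) :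
    Matrix.GeneralLinearGroup.det (gσ σ g) = 1 := by
  apply Units.ext
  change ((g : Matrix (Fin n) (Fin n) F).map σ).det = 1
  have h1 := (σ : F →+* F).map_det (g : Matrix (Fin n) (Fin n) F)
  have h2 : (g : Matrix (Fin n) (Fin n) F).det = 1 := congrArg Units.val hg
  rw [h2, map_one] at h1
  exact h1.symm

/-- the semilinear group. -/
def GamU (n : ℕ) (F : Type*) [Field F] [Fintype F] (q : ℕ) : Subgroup (Gm (Fin n) F) where
  carrier := {x | x.left ∈ CGU n F q}
  one_mem' := one_mem (CGU n F q)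
  mul_mem' := by
    intro x y hx hy
    change (x * y).left ∈ CGU n F q
    rw [SemidirectProduct.mul_left]
    exact mul_mem hx (gσ_mem _ hy)
  inv_mem' := by
    intro x hx
    change (x⁻¹).left ∈ CGU n F q
    rw [SemidirectProduct.inv_left]
    exact gσ_mem _ (inv_mem hx)

theorem scal_mem (hF : Fintype.card F = q ^ 2) (c : Fˣ) : scl (Fin n) c ∈ CGU n F q := by
  refine ⟨c * c ^ q, fun u v => ?_⟩
  rw [PSp.scl_mulVec, PSp.scl_mulVec, herm_smul_left, herm_smul_right, Units.val_mul, Units.val_pow_eq_pow_val, mul_assoc]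

/-- `CGU = scalars · GU`. -/
theorem exists_sc_GU (hF : Fintype.card F = q ^ 2) (hn : 1 ≤ n) {g : GL (Fin n) F} (hg : g ∈ CGU n F q) :
    ∃ (d : Fˣ) (u : GL (Fin n) F), u ∈ Cfsg.GU n F q ∧ g = scl (Fin n) d * u := by
  obtain ⟨c, hc⟩ := hg
  have : NeZero n := ⟨by omega⟩
  -- c is fixed
  have h1 : (c : F) ^ q = c := by
    have h2 : Cfsg.hermForm n F q (Pi.single 0 1) (Pi.single 0 1) = 1 := by
      rw [hermForm_single_right n 0 _ (by have := Fld.one_lt_q hF; omega), Pi.single_eq_same]
    have h3 := hc (Pi.single 0 1) (Pi.single 0 1)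
    rw [h2, mul_one] at h3
    rw [← h3, herm_swap hF]
  obtain ⟨d, hd⟩ := Fld.exists_norm_eq hF _ h1
  have hd0 : d ≠ 0 := by
    rintro rfl
    rw [zero_pow (by omega)] at hd
    exact c.ne_zero hd.symm
  refine ⟨Units.mk0 d hd0, scl (Fin n) (Units.mk0 d hd0)⁻¹ * g, ?_, ?_⟩
  · intro u v
    change Cfsg.hermForm n F q (((scl (Fin n) (Units.mk0 d hd0)⁻¹ * g : GL (Fin n) F) : Matrix (Fin n) (Fin n) F) *ᵥ u)
      (((scl (Fin n) (Units.mk0 d hd0)⁻¹ * g : GL (Fin n) F) : Matrix (Fin n) (Fin n) F) *ᵥ v) = _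
    rw [PSp.coe_mul_mulVec, PSp.coe_mul_mulVec, PSp.scl_mulVec, PSp.scl_mulVec, herm_smul_left, herm_smul_right, hc,
      Units.val_inv_eq_inv_val, Units.val_mk0, ← hd, pow_succ, inv_pow]
    have hdq : d ^ q ≠ 0 := pow_ne_zero _ hd0
    field_simp
  · rw [← mul_assoc, ← _root_.map_mul, mul_inv_cancel, _root_.map_one, one_mul]

/-- the family. -/
noncomputable def fam (hF : Fintype.card F = q ^ 2) (hn : 3 ≤ n) : Fam (Cfsg.SU n F q) (Fin n) F where
  ρ := toG n F q
  inj := toG_inj
  Γ := GamU n F q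
  hΓ := by
    rintro x hx s
    obtain ⟨d, u, hu, hxu⟩ := exists_sc_GU hF (show 1 ≤ n by omega) (show x.left ∈ CGU n F q from hx)
    have h1 : act x (toG n F q s) = u * gσ x.right (toG n F q s) * u⁻¹ := by
      rw [act_apply, hxu, _root_.mul_inv_rev, mul_assoc (scl (Fin n) d), ← mul_assoc (scl (Fin n) d * _) u⁻¹,
        mul_assoc (scl (Fin n) d), sc_comm, mul_inv_cancel_right]
    rw [h1]
    apply exists_toG
    · exact mul_mem (mul_mem hu (gσ_mem_GU _ (toG_mem s))) (inv_mem hu)
    · rw [_root_.map_mul, _root_.map_mul, gσ_det _ (toG_det s), mul_one, ← _root_.map_mul, mul_inv_cancel, _root_.map_one]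
  inn s := by
    change toG n F q s ∈ CGU n F q
    exact GU_le_CGU (toG_mem s)
  sc c := scal_mem hF c
  ker := by
    rintro x hx h
    obtain ⟨e, he, he0⟩ := exists_sg (F := F) hF (show 2 ≤ n by omega)
    obtain ⟨f, hf, hef⟩ := (suG hF n).exists_opp he he0
    have h1d := (suG hF n).finrank_perp he hf hef
    rw [Module.finrank_fintype_fun_eq_card, Fintype.card_fin] at h1d
    have hnt : Nontrivial ((suG hF n).perp e f) := Module.nontrivial_of_finrank_pos (R := F) (by omega)
    obtain ⟨⟨u₀, hu₀⟩, hu00⟩ := exists_ne (0 : (suG hF n).perp e f)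
    have hP := herm hF n
    have h1 := (suG hF n).ker_lemma (σ := x.right) (γ := fun v => (x.left : Matrix (Fin n) (Fin n) F) *ᵥ (fun i => x.right (v i)))
      (PolG.big_of_rich (rich hF n)) he hf hef ⟨u₀, hu₀, fun h => hu00 (Subtype.ext h)⟩ (by
        -- nonsingular vector in the perp
        intro c
        obtain ⟨w, hw, hww⟩ : ∃ w ∈ (suG hF n).perp e f, (suG hF n).h w w ≠ 0 := by
          by_contra hcon
          push Not at hcon
          obtain ⟨d, hd⟩ := hP.tr 1 (map_one _)
          apply hu00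
          apply ((suG hF n).sub he hf hef).nondeg
          rintro ⟨y, hy⟩
          change (suG hF n).h u₀ y = 0
          by_contra hne
          have h2 : ∀ z ∈ (suG hF n).perp e f, (suG hF n).h u₀ z + (suP hF n).bar ((suG hF n).h u₀ z) = 0 := by
            intro z hz
            have h3 := hcon _ (((suG hF n).perp e f).add_mem hu₀ hz)
            rw [(suG hF n).h_add_left, (suG hF n).h_add_right, (suG hF n).h_add_right, hcon u₀ hu₀, hcon z hz] at h3
            have h4 : (suG hF n).h z u₀ = (suP hF n).bar ((suG hF n).h u₀ z) := hP.swap u₀ z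
            rw [h4] at h3
            linear_combination h3
          have h3 := h2 ((d * ((suG hF n).h u₀ y)⁻¹) • y) (((suG hF n).perp e f).smul_mem _ hy)
          rw [(suG hF n).h_smul_right, inv_mul_cancel_right₀ hne, hd] at h3
          exact one_ne_zero h3
        obtain ⟨d, hd⟩ := hP.nm (-(c + (suP hF n).bar c) * ((suG hF n).h w w)⁻¹) (by
          have h2 := hP.self_bar w
          change (suP hF n).bar ((suG hF n).h w w) = (suG hF n).h w w at h2
          rw [map_mul, map_inv₀, h2, map_neg, map_add, (suP hF n).bar_bar, add_comm c])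
        refine ⟨d • w, ((suG hF n).perp e f).smul_mem d hw, ?_⟩
        refine (hP.sg_iff _).mpr ?_
        change (suG hF n).h (f + d • w + c • e) (f + d • w + c • e) = 0
        have e1 := (suG hF n).sg_self e he
        have e2 := (suG hF n).sg_self f hf
        have e3 := (suG hF n).h_fe hef
        have e4 := (suG hF n).h_comm_zero.mp hw.1
        have e5 := (suG hF n).h_comm_zero.mp hw.2
        have e6 : (suG hF n).ε = 1 := rfl
        simp only [(suG hF n).h_add_left, (suG hF n).h_add_right, (suG hF n).h_smul_left, (suG hF n).h_smul_right,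
          e1, e2, e3, e4, e5, hw.1, hw.2, hef, e6]
        have h7 : d * (suP hF n).bar d * (suG hF n).h w w = -(c + (suP hF n).bar c) := by
          rw [hd]; field_simp
        have h8 : (suG hF n).bar = (suP hF n).bar := rfl
        rw [h8]
        linear_combination h7)
      (by
        intro a b
        have : (fun i => x.right ((a + b) i)) = (fun i => x.right (a i)) + fun i => x.right (b i) := by
          funext i; exact map_add _ _ _
        simp only [this, mulVec_add])
      (by
        intro a b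
        have : (fun i => x.right ((a • b) i)) = x.right a • fun i => x.right (b i) := by
          funext i; exact map_mul _ _ _
        simp only [this, mulVec_smul])
      (by
        intro v hv
        have h2 := congrArg (fun w => ((x.left⁻¹ : GL (Fin n) F) : Matrix (Fin n) (Fin n) F) *ᵥ w) hv
        simp only [← PSp.coe_mul_mulVec, inv_mul_cancel, Units.val_one, one_mulVec, mulVec_zero] at h2
        funext i
        have h3 := congrFun h2 i
        exact (map_eq_zero x.right).mp h3)
      (by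
        intro s
        obtain ⟨c, hc⟩ := h s
        refine ⟨c, fun v => ?_⟩
        have h2 : x.left * gσ x.right (toG n F q s) = scl _ c * toG n F q s * x.left := by
          rw [← hc, act_apply, inv_mul_cancel_right]
        have h3 := congrArg (fun g : GL (Fin n) F => (g : Matrix (Fin n) (Fin n) F) *ᵥ (fun i => x.right (v i))) h2
        simp only [PSp.coe_mul_mulVec, map_mulVec', PSp.scl_mulVec] at h3
        exact h3)
    obtain ⟨h2, l, hl, h3⟩ := h1
    refine ⟨Units.mk0 l hl, ?_⟩
    apply SemidirectProduct.ext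
    · rw [SemidirectProduct.left_inl]
      apply PSp.gl_ext
      intro v
      rw [PSp.scl_mulVec]
      have h4 := h3 v
      rw [h2] at h4
      exact h4
    · exact h2
  cen s := by
    rw [(suG hF n).center_iff (rich hF n) (span_top hF (show 2 ≤ n by omega)) (exists_sg hF (show 2 ≤ n by omega))]
    constructor
    · rintro ⟨c, hc⟩
      have hc0 : c ≠ 0 := by
        rintro rfl
        obtain ⟨e, he, he0⟩ := exists_sg (F := F) hF (show 2 ≤ n by omega)
        have := hc e
        rw [zero_smul] at this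
        exact (suG hF n).r_ne_zero s he0 this
      refine ⟨Units.mk0 c hc0, PSp.gl_ext fun v => ?_⟩
      rw [PSp.scl_mulVec]
      exact hc v
    · rintro ⟨c, hc⟩
      refine ⟨c, fun v => ?_⟩
      have h1 := congrArg (fun g : GL (Fin n) F => (g : Matrix (Fin n) (Fin n) F) *ᵥ v) hc
      simp only [PSp.scl_mulVec] at h1
      exact h1

end Cfsg.Agent.H16.PSU
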