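import Cfsg.Agent.H16_PSU4

set_option autoImplicit false

/-! The unitary family: automorphism group. -/

namespace Cfsg.Agent.H16.PSU

open Matrix Cfsg.Agent.H5 Cfsg.Agent.H5.Unit Cfsg.Agent.H5.Frm Cfsg.Agent.H5.Conc Cfsg.Agent.H16.Ps Cfsg.Agent.H16.Gam
  Cfsg.Agent.H16.AutL Cfsg.Agent.H16.AutG Cfsg.Agent.H16.Desc Module

variable {F : Type*} [Field F] [Fintype F] {q n : ℕ}

theorem fam_hasField (hF : Fintype.card F = q ^ 2) (hn : 3 ≤ n) : (fam hF hn).HasField := by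
  intro σ
  change (1 : GL (Fin n) F) ∈ CGU n F q
  exact one_mem _

theorem mem_fam_N (hF : Fintype.card F = q ^ 2) (hn : 3 ≤ n) {g : GL (Fin n) F} : g ∈ (fam hF hn).N ↔ g ∈ CGU n F q := Iff.rfl

theorem full (hF : Fintype.card F = q ^ 2) (hn : 3 ≤ n) (hs : ¬ (n = 3 ∧ q = 2)) : (fam hF hn).Full := by
  intro α
  obtain ⟨M, σ, k, hk0, hMk, h⟩ := final hF hn hs α
  have hM : M ∈ CGU n F q := by
    refine ⟨Units.mk0 k hk0, fun u v => ?_⟩
    obtain ⟨x, rfl⟩ := exists_map σ u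
    obtain ⟨y, rfl⟩ := exists_map σ v
    refine (hMk y x).trans ?_
    have h2 := form_map (σ : F →+* F) (q := q) x y
    change k * σ (Cfsg.hermForm n F q x y) = k * Cfsg.hermForm n F q (fun i => σ (x i)) (fun i => σ (y i))
    congr 1
    exact h2.symm
  let x : (fam hF hn).Γ := ⟨⟨M, σ⟩, hM⟩
  refine ⟨x, ?_⟩
  ext1 s
  induction s using QuotientGroup.induction_on with
  | H s =>
    obtain ⟨s', hs'⟩ := QuotientGroup.mk_surjective (α (QuotientGroup.mk s))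
    obtain ⟨c, hc, h1⟩ := h s s' hs'
    rw [Fam.T_mk, ← hs', (fam hF hn).mk_eq_iff]
    refine ⟨Units.mk0 c hc, ?_⟩
    rw [rho_tr, act_apply]
    change toG n F q s' = scl _ (Units.mk0 c hc) * (M * gσ σ (toG n F q s) * M⁻¹)
    rw [← mul_assoc, eq_mul_inv_iff_mul_eq]
    apply PSp.gl_ext
    intro v
    obtain ⟨x, rfl⟩ := exists_map σ v
    rw [PSp.coe_mul_mulVec, PSp.coe_mul_mulVec, PSp.coe_mul_mulVec, map_mulVec', PSp.scl_mulVec]
    exact h1 x

/-- translation of the predicate. -/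
theorem induced_iff (hF : Fintype.card F = q ^ 2) (hn : 3 ≤ n) {g : GL (Fin n) F} {σ : F ≃+* F} (hg : g ∈ CGU n F q)
    {β : MulAut (Cfsg.PSU n F q)} : Cfsg.IsInducedBySemilinearPSU g σ β ↔
      β = (fam hF hn).T ⟨⟨g, σ⟩, hg⟩ := by
  have key : ∀ s s' : Cfsg.SU n F q, ((s' : Matrix.SpecialLinearGroup (Fin n) F) : Matrix (Fin n) (Fin n) F) =
        (g : Matrix (Fin n) (Fin n) F) * ((s : Matrix.SpecialLinearGroup (Fin n) F) : Matrix (Fin n) (Fin n) F).map σ *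
          ((g⁻¹ : GL (Fin n) F) : Matrix (Fin n) (Fin n) F) ↔
      s' = tr (fam hF hn).ρ (fam hF hn).inj (fam hF hn).Γ (fam hF hn).hΓ ⟨⟨g, σ⟩, hg⟩ s := by
    intro s s'
    constructor
    · intro h
      apply (fam hF hn).inj
      rw [rho_tr, act_apply]
      apply Units.ext
      exact h
    · intro h
      rw [h]
      have h1 := rho_tr (fam hF hn).ρ (fam hF hn).inj (fam hF hn).Γ (fam hF hn).hΓ ⟨⟨g, σ⟩, hg⟩ s
      exact congrArg (fun g : GL (Fin n) F => (g : Matrix (Fin n) (Fin n) F)) h1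
  constructor
  · intro h
    ext1 s
    induction s using QuotientGroup.induction_on with
    | H s => exact h s _ ((key s _).mpr rfl)
  · rintro rfl s s' h
    rw [Fam.T_mk, ← (key s s').mp h]

theorem field_iff (hF : Fintype.card F = q ^ 2) (hn : 3 ≤ n) {σ : F ≃+* F} {β : MulAut (Cfsg.PSU n F q)} :
    Cfsg.IsFieldAutPSUOf σ β ↔ β = (fam hF hn).T (Fam.fin (fam_hasField hF hn) σ) := by
  have h1 : Cfsg.IsFieldAutPSUOf σ β ↔ Cfsg.IsInducedBySemilinearPSU (1 : GL (Fin n) F) σ β := by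
    constructor
    · intro h s s' hs
      apply h s s'
      rw [hs]
      simp
    · intro h s s' hs
      apply h s s'
      rw [hs]
      simp
  rw [h1, induced_iff hF hn (one_mem _)]
  rfl

theorem T_scl (hF : Fintype.card F = q ^ 2) (hn : 3 ≤ n) (d : Fˣ) {u : GL (Fin n) F} {σ : F ≃+* F} (hu : u ∈ CGU n F q) :
    (fam hF hn).T ⟨⟨scl (Fin n) d * u, σ⟩, mul_mem (scal_mem hF d) hu⟩ = (fam hF hn).T ⟨⟨u, σ⟩, hu⟩ := by
  have h1 : (⟨⟨scl (Fin n) d * u, σ⟩, mul_mem (scal_mem hF d) hu⟩ : (fam hF hn).Γ) =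
      (fam hF hn).nin ⟨scl (Fin n) d, (fam hF hn).sc d⟩ * ⟨⟨u, σ⟩, hu⟩ := by
    apply Subtype.ext
    change (⟨scl (Fin n) d * u, σ⟩ : Gm (Fin n) F) = SemidirectProduct.inl (scl (Fin n) d) * ⟨u, σ⟩
    apply SemidirectProduct.ext
    · rw [SemidirectProduct.mul_left, SemidirectProduct.left_inl, SemidirectProduct.right_inl, _root_.map_one, MulAut.one_apply]
    · rw [SemidirectProduct.mul_right, SemidirectProduct.right_inl, one_mul]
  have h2 : (fam hF hn).T ((fam hF hn).nin ⟨scl (Fin n) d, (fam hF hn).sc d⟩) = 1 := ((fam hF hn).ker_nin _).mpr ⟨d, rfl⟩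
  rw [h1, _root_.map_mul, h2, one_mul]

/-- `D` is the image of `GU`. -/
theorem mem_D_iff (hF : Fintype.card F = q ^ 2) (hn : 3 ≤ n) {β : MulAut (Cfsg.PSU n F q)} :
    β ∈ (fam hF hn).D ↔ ∃ (g : GL (Fin n) F) (hg : g ∈ Cfsg.GU n F q), (fam hF hn).T ⟨⟨g, 1⟩, GU_le_CGU hg⟩ = β := by
  constructor
  · rintro ⟨⟨g, hg⟩, rfl⟩
    obtain ⟨d, u, hu, rfl⟩ := exists_sc_GU hF (show 1 ≤ n by omega) hg
    exact ⟨u, hu, (T_scl hF hn d (σ := 1) (GU_le_CGU hu)).symm⟩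
  · rintro ⟨g, hg, rfl⟩
    exact ⟨⟨g, GU_le_CGU hg⟩, rfl⟩

theorem innDiag_iff (hF : Fintype.card F = q ^ 2) (hn : 3 ≤ n) {β : MulAut (Cfsg.PSU n F q)} :
    Cfsg.IsInnerDiagonalAutPSU β ↔ β ∈ (fam hF hn).D := by
  have h1 : ∀ g : GL (Fin n) F, (∀ s s' : ↥(Cfsg.SU n F q),
    ((s' : Matrix.SpecialLinearGroup (Fin n) F) : Matrix (Fin n) (Fin n) F) =
        ((g : GL (Fin n) F) : Matrix (Fin n) (Fin n) F) *
          ((s : Matrix.SpecialLinearGroup (Fin n) F) : Matrix (Fin n) (Fin n) F) *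
          ((g⁻¹ : GL (Fin n) F) : Matrix (Fin n) (Fin n) F) →
      β (QuotientGroup.mk s) = QuotientGroup.mk s') ↔ Cfsg.IsInducedBySemilinearPSU g (1 : F ≃+* F) β := by
    intro g
    constructor
    · intro h s s' hs
      apply h s s'
      rw [hs]
      have : (((s : Matrix.SpecialLinearGroup (Fin n) F) : Matrix (Fin n) (Fin n) F)).map (1 : F ≃+* F) =
          ((s : Matrix.SpecialLinearGroup (Fin n) F) : Matrix (Fin n) (Fin n) F) := by ext i j; rfl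
      rw [this]
    · intro h s s' hs
      apply h s s'
      rw [hs]
      have : (((s : Matrix.SpecialLinearGroup (Fin n) F) : Matrix (Fin n) (Fin n) F)).map (1 : F ≃+* F) =
          ((s : Matrix.SpecialLinearGroup (Fin n) F) : Matrix (Fin n) (Fin n) F) := by ext i j; rfl
      rw [this]
  rw [mem_D_iff hF hn]
  constructor
  · rintro ⟨g, hg, h⟩
    exact ⟨g, hg, ((induced_iff hF hn (GU_le_CGU hg)).mp ((h1 g).mp h)).symm⟩
  · rintro ⟨g, hg, rfl⟩
    exact ⟨g, hg, (h1 g).mpr ((induced_iff hF hn (GU_le_CGU hg)).mpr rfl)⟩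

theorem inndiag_eq (hF : Fintype.card F = q ^ 2) (hn : 3 ≤ n) : Cfsg.inndiagPSU n F q = (fam hF hn).D := by
  apply le_antisymm
  · rw [Cfsg.inndiagPSU, Cfsg.autSubgroupOf, Subgroup.closure_le]
    intro β hβ
    exact (innDiag_iff hF hn).mp hβ
  · intro β hβ
    exact Subgroup.subset_closure ((innDiag_iff hF hn).mpr hβ)

theorem gamma_eq (hF : Fintype.card F = q ^ 2) (hn : 3 ≤ n) (hs : ¬ (n = 3 ∧ q = 2)) : Cfsg.gammaPSU n F q = ⊤ := by
  rw [eq_top_iff]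
  rintro α -
  obtain ⟨⟨⟨g, σ⟩, hg⟩, rfl⟩ := full hF hn hs α
  obtain ⟨d, u, hu, rfl⟩ := exists_sc_GU hF (show 1 ≤ n by omega) (show g ∈ CGU n F q from hg)
  refine Subgroup.subset_closure ⟨u, σ, hu, (induced_iff hF hn (GU_le_CGU hu)).mpr ?_⟩
  exact T_scl hF hn d (GU_le_CGU hu)

theorem D_normal (hF : Fintype.card F = q ^ 2) (hn : 3 ≤ n) (hs : ¬ (n = 3 ∧ q = 2)) : (fam hF hn).D.Normal :=
  (full hF hn hs).D_normal

end Cfsg.Agent.H16.PSU
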