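import Cfsg.Agent.H16_PSU5
import Cfsg.Agent.H16_HermM
import Cfsg.Agent.H16_AutF3

set_option autoImplicit false

/-! The unitary family: Lang's theorem. -/

namespace Cfsg.Agent.H16.PSU

open Matrix Cfsg.Agent.H5 Cfsg.Agent.H5.Unit Cfsg.Agent.H5.Frm Cfsg.Agent.H5.Conc Cfsg.Agent.H16.Ps Cfsg.Agent.H16.Gam
  Cfsg.Agent.H16.AutL Cfsg.Agent.H16.AutG Cfsg.Agent.H16.Desc Module

variable {F : Type*} [Field F] [Fintype F] {q n : ℕ}

/-- the bar as a ring equivalence. -/
noncomputable def bt (hF : Fintype.card F = q ^ 2) : F ≃+* F :=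
  RingEquiv.ofBijective (Fld.frob hF) (Finite.injective_iff_bijective.mp (Fld.frob hF).injective)

theorem bt_apply (hF : Fintype.card F = q ^ 2) (x : F) : bt hF x = x ^ q := Fld.frob_apply hF x

theorem bt_bt (hF : Fintype.card F = q ^ 2) (x : F) : bt hF (bt hF x) = x := Fld.frob_frob hF x

theorem bt_sq (hF : Fintype.card F = q ^ 2) : bt hF * bt hF = 1 := RingEquiv.ext (bt_bt hF)

theorem bt_ne (hF : Fintype.card F = q ^ 2) : bt hF ≠ 1 := by
  intro h
  apply Fld.frob_ne_id hF
  ext x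
  exact congrArg (fun σ : F ≃+* F => σ x) h

theorem mem_GU_git (hF : Fintype.card F = q ^ 2) {g : GL (Fin n) F} : g ∈ Cfsg.GU n F q ↔ gσ (bt hF) g = git g := by
  rw [mem_GU_iff hF]
  constructor
  · intro h
    have h1 : (git g)⁻¹ * gσ (bt hF) g = 1 := Units.ext h
    exact (inv_mul_eq_one.mp h1).symm
  · intro h
    have h1 : (git g)⁻¹ * gσ (bt hF) g = 1 := by rw [h, inv_mul_cancel]
    exact congrArg Units.val h1

theorem git_scl (c : Fˣ) : git (scl (Fin n) c) = scl (Fin n) c⁻¹ := git_scalar c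

theorem scl_swap (c : Fˣ) (g h : GL (Fin n) F) : g * (scl (Fin n) c * h) = scl (Fin n) c * (g * h) := by
  rw [← mul_assoc, ← sc_comm, mul_assoc]

theorem scl_scl (c d : Fˣ) (g : GL (Fin n) F) : scl (Fin n) c * (scl (Fin n) d * g) = scl (Fin n) (c * d) * g := by
  rw [← mul_assoc, ← _root_.map_mul]

theorem scl_cancel [Nonempty (Fin n)] {c d : Fˣ} {g : GL (Fin n) F} (h : scl (Fin n) c * g = scl (Fin n) d * g) : c = d :=
  sc_inj (mul_right_cancel h)

theorem mem_CGU_git (hF : Fintype.card F = q ^ 2) (hn : 1 ≤ n) {g : GL (Fin n) F} : g ∈ CGU n F q ↔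
    ∃ c : Fˣ, gσ (bt hF) g = scl (Fin n) c * git g := by
  constructor
  · intro h
    obtain ⟨d, u, hu, rfl⟩ := exists_sc_GU hF hn h
    rw [mem_GU_git hF] at hu
    refine ⟨Units.map (bt hF : F →* F) d * d, ?_⟩
    rw [_root_.map_mul (gσ (bt hF)), _root_.map_mul git, hu, gσ_sc, git_scl, scl_scl, mul_inv_cancel_right]
  · rintro ⟨c, hc⟩
    have : Nonempty (Fin n) := ⟨⟨0, by omega⟩⟩
    have h1 : gσ (bt hF) (gσ (bt hF) g) = g := by
      rw [← gσ_mul, bt_sq, gσ_one]
    rw [hc, _root_.map_mul, gσ_sc, gσ_git, hc, _root_.map_mul, git_git, git_scl, scl_scl] at h1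
    have h2 : Units.map (bt hF : F →* F) c * c⁻¹ = 1 := by
      apply scl_cancel (g := g)
      rw [h1, _root_.map_one, one_mul]
    have h3 : (c : F) ^ q = c := by
      rw [← bt_apply hF]
      have := congrArg Units.val (mul_inv_eq_one.mp h2)
      exact this
    obtain ⟨d, hd⟩ := Fld.exists_norm_eq hF _ h3
    have hd0 : d ≠ 0 := by
      rintro rfl
      rw [zero_pow (by omega)] at hd
      exact c.ne_zero hd.symm
    have hcd : c = Units.map (bt hF : F →* F) (Units.mk0 d hd0) * Units.mk0 d hd0 := by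
      apply Units.ext
      rw [← hd, pow_succ, ← bt_apply hF]
      rfl
    have h4 : scl (Fin n) (Units.mk0 d hd0)⁻¹ * g ∈ Cfsg.GU n F q := by
      rw [mem_GU_git hF, _root_.map_mul, _root_.map_mul, hc, gσ_sc, git_scl, scl_scl, inv_inv, hcd, _root_.map_inv,
        inv_mul_cancel_left]
    have h5 : g = scl (Fin n) (Units.mk0 d hd0) * (scl (Fin n) (Units.mk0 d hd0)⁻¹ * g) := by
      rw [scl_scl, mul_inv_cancel, _root_.map_one, one_mul]
    rw [h5]
    exact mul_mem (scal_mem hF _) (GU_le_CGU h4)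

/-- the multiplier is fixed by the bar. -/
theorem mult_bt (hF : Fintype.card F = q ^ 2) (hn : 1 ≤ n) {g : GL (Fin n) F} {c : Fˣ}
    (hc : gσ (bt hF) g = scl (Fin n) c * git g) : bt hF (c : F) = c := by
  have : Nonempty (Fin n) := ⟨⟨0, by omega⟩⟩
  have h1 : gσ (bt hF) (gσ (bt hF) g) = g := by
    rw [← gσ_mul, bt_sq, gσ_one]
  rw [hc, _root_.map_mul, gσ_sc, gσ_git, hc, _root_.map_mul, git_git, git_scl, scl_scl] at h1
  have h2 : Units.map (bt hF : F →* F) c * c⁻¹ = 1 := by
    apply scl_cancel (g := g)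
    rw [h1, _root_.map_one, one_mul]
  exact congrArg Units.val (mul_inv_eq_one.mp h2)

theorem bt_comm (hF : Fintype.card F = q ^ 2) (σ : F ≃+* F) (x : F) : σ (bt hF x) = bt hF (σ x) := by
  rw [bt_apply, bt_apply, map_pow]

theorem gσ_bt_comm (hF : Fintype.card F = q ^ 2) (σ : F ≃+* F) (g : GL (Fin n) F) :
    gσ σ (gσ (bt hF) g) = gσ (bt hF) (gσ σ g) := by
  rw [← gσ_mul, ← gσ_mul]
  have : σ * bt hF = bt hF * σ := RingEquiv.ext fun x => bt_comm hF σ x
  rw [this]

/-- arithmetic of field automorphisms of odd order. -/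
theorem odd_root (hF : Fintype.card F = q ^ 2) {σ : F ≃+* F} (ho : Odd (orderOf σ)) :
    ∃ q₀ : ℕ, 2 ≤ q₀ ∧ q = q₀ ^ orderOf σ ∧ Nat.card {x : F // σ x = x} = q₀ ^ 2 ∧
      ∀ x : F, σ x = x → x ^ q = x ^ q₀ := by
  obtain ⟨Q, hQ, hcard, -, hfix⟩ := card_fix σ
  obtain ⟨p, hp⟩ := CharP.exists F
  have hpp : Fact p.Prime := ⟨CharP.char_is_prime F p⟩
  obtain ⟨f, -, hqf⟩ := Fld.exists_prime_pow hF p
  have hr0 : 0 < orderOf σ := ho.pos
  have h1 : p ^ (2 * f) = Q ^ orderOf σ := by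
    rw [← hcard, Nat.card_eq_fintype_card, hF, hqf, ← pow_mul, mul_comm f]
  obtain ⟨h2, h3⟩ := prime_pow_root hpp.out h1 hr0
  have h4 : orderOf σ ∣ f := (Nat.Coprime.dvd_mul_left (Nat.Coprime.symm ((Nat.coprime_two_left).mpr ho))).mp h2
  obtain ⟨a, ha⟩ := h4
  have h5 : 2 * f / orderOf σ = a * 2 := by
    rw [ha, Nat.div_eq_of_eq_mul_left hr0]; ring
  rw [h5, pow_mul] at h3
  have hq : q = (p ^ a) ^ orderOf σ := by rw [hqf, ha, ← pow_mul, mul_comm]
  refine ⟨p ^ a, ?_, hq, by rw [hfix, h3], ?_⟩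
  · by_contra hlt
    have : p ^ a = 0 ∨ p ^ a = 1 := by omega
    rcases this with h | h
    · rw [h] at h3; omega
    · rw [h] at h3; omega
  · intro x hx
    have h6 : x ^ (p ^ a) ^ 2 = x := by
      let K : Subfield F := RingHom.eqLocusField (σ : F →+* F) (RingHom.id F)
      have hKc : Nat.card K = (p ^ a) ^ 2 := by
        rw [← h3, ← hfix]
        exact Nat.card_congr (Equiv.subtypeEquivRight fun x => Iff.rfl)
      have : Fintype K := Fintype.ofFinite K
      have h7 := FiniteField.pow_card (⟨x, hx⟩ : K)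
      rw [← Nat.card_eq_fintype_card, hKc] at h7
      exact congrArg Subtype.val h7
    obtain ⟨s, hs⟩ := ho
    rw [hq, hs]
    clear hs
    induction s with
    | zero => rw [mul_zero, zero_add, pow_one]
    | succ s ih =>
      rw [show 2 * (s + 1) + 1 = (2 * s + 1) + 2 by ring, pow_add, pow_mul, ih, ← pow_mul, mul_comm (p ^ a),
        pow_mul, h6]

theorem lang (hF : Fintype.card F = q ^ 2) (hn : 3 ≤ n) {σ : F ≃+* F} (ho : Odd (orderOf σ)) : Fam.Lang (fam hF hn) σ := by
  intro g hg hN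
  replace hg : g ∈ CGU n F q := hg
  obtain ⟨k, hk⟩ := (mem_CGU_git hF (show 1 ≤ n by omega)).mp hg
  have hnt : Nonempty (Fin n) := ⟨⟨0, by omega⟩⟩
  have hr0 : 0 < orderOf σ := ho.pos
  obtain ⟨h, hh⟩ := hilbert90 σ rfl hr0 g hN
  obtain ⟨q₀, hq0, hqq, hfix, hpw⟩ := odd_root hF ho
  -- the multiplier
  have hkN : ∀ j, gσ (bt hF) (Nn σ g j) = scl (Fin n) (nn σ k j) * git (Nn σ g j) := by
    intro j
    induction j with
    | zero => rw [Nn_zero, nn, _root_.map_one, _root_.map_one, _root_.map_one, one_mul]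
    | succ j ih =>
      rw [Nn_succ, _root_.map_mul, _root_.map_mul, ← gσ_bt_comm, ih, hk, _root_.map_mul, gσ_sc, gσ_git, nn,
        _root_.map_mul, mul_assoc, mul_assoc, scl_swap]
  have hk1 : nn σ k (orderOf σ) = 1 := by
    have h1 := hkN (orderOf σ)
    rw [hN, _root_.map_one, _root_.map_one, mul_one] at h1
    apply sc_inj (ι := Fin n)
    rw [← h1, _root_.map_one]
  have hkb := mult_bt hF (show 1 ≤ n by omega) hk
  obtain ⟨l, hl, hlb⟩ : ∃ l : Fˣ, (k : F) * σ l = l ∧ bt hF (l : F) = l := by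
    obtain ⟨l, hl⟩ := hilbert90_one σ rfl hr0 k hk1
    obtain ⟨a, ha, ha0⟩ : ∃ a : F, σ a = a ∧ a * l + bt hF (a * l) ≠ 0 := by
      by_contra hcon
      push Not at hcon
      have e1 : (l : F) + bt hF l = 0 := by
        have := hcon 1 (map_one σ)
        rwa [one_mul] at this
      have e2 : ∀ a : F, σ a = a → a ^ q₀ = a := by
        intro a ha
        have e3 := hcon a ha
        rw [map_mul] at e3
        have e4 : (a - bt hF a) * (l : F) = 0 := by linear_combination e3 - bt hF a * e1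
        have e5 := (mul_eq_zero.mp e4).resolve_right l.ne_zero
        rw [← hpw a ha, ← bt_apply hF]
        exact (sub_eq_zero.mp e5).symm
      have e6 : Nat.card {x : F // σ x = x} ≤ q₀ := by
        have hne : (Polynomial.X ^ q₀ - Polynomial.X : Polynomial F) ≠ 0 :=
          FiniteField.X_pow_card_sub_X_ne_zero F (by omega)
        have hdeg : (Polynomial.X ^ q₀ - Polynomial.X : Polynomial F).natDegree = q₀ :=
          FiniteField.X_pow_card_sub_X_natDegree_eq F (by omega)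
        classical
        set R := (Polynomial.X ^ q₀ - Polynomial.X : Polynomial F).roots.toFinset with hR
        have hRcard : R.card ≤ q₀ := by
          refine (Multiset.toFinset_card_le _).trans ?_
          have := Polynomial.card_roots' (Polynomial.X ^ q₀ - Polynomial.X : Polynomial F)
          rwa [hdeg] at this
        refine le_trans ?_ hRcard
        rw [Nat.card_eq_fintype_card, Fintype.card_subtype]
        apply Finset.card_le_card
        intro x hx
        rw [Finset.mem_filter] at hx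
        rw [hR, Multiset.mem_toFinset, Polynomial.mem_roots hne, Polynomial.IsRoot.def]
        simp [e2 x hx.2]
      rw [hfix] at e6
      nlinarith
    refine ⟨Units.mk0 _ ha0, ?_, ?_⟩
    · rw [Units.val_mk0, map_add, bt_comm hF, map_mul, ha, mul_add]
      have e1 : (k : F) * (a * σ (l : F)) = a * l := by rw [mul_left_comm, hl]
      have e2 : (k : F) * bt hF (a * σ (l : F)) = bt hF (a * l) := by
        rw [← e1, map_mul (bt hF) (k : F), hkb]
      rw [e1, e2]
    · rw [Units.val_mk0, map_add, bt_bt, add_comm]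
  -- the transported matrix
  set A : GL (Fin n) F := scl (Fin n) l⁻¹ * ((git h)⁻¹ * gσ (bt hF) h) with hA
  have hσh : gσ σ h = g⁻¹ * h := by rw [eq_inv_mul_iff_mul_eq, hh]
  have hσA : gσ σ A = A := by
    have e1 : Units.map (σ : F →* F) l⁻¹ = k * l⁻¹ := by
      have e2 : k * Units.map (σ : F →* F) l = l := Units.ext hl
      rw [_root_.map_inv, inv_eq_iff_eq_inv, mul_inv, inv_inv, eq_inv_mul_iff_mul_eq]
      exact e2
    rw [hA, _root_.map_mul, _root_.map_mul, gσ_sc, _root_.map_inv (gσ σ), gσ_git, gσ_bt_comm, hσh, _root_.map_mul,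
      _root_.map_mul, _root_.map_inv (gσ (bt hF)), hk, e1, _root_.map_inv git, _root_.mul_inv_rev, inv_inv,
      _root_.mul_inv_rev, ← _root_.map_inv (scl (Fin n))]
    have e3 : ∀ x y z : GL (Fin n) F, x * y * (y⁻¹ * scl (Fin n) k⁻¹ * z) = scl (Fin n) k⁻¹ * (x * z) := by
      intro x y z
      rw [← sc_comm, mul_assoc (scl (Fin n) k⁻¹), scl_swap, mul_assoc x, mul_inv_cancel_left]
    rw [e3, scl_scl, mul_right_comm, mul_inv_cancel, one_mul]
  have hAh : (((A : Matrix (Fin n) (Fin n) F)).map (bt hF))ᵀ = (A : Matrix (Fin n) (Fin n) F) := by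
    have e1 : gσ (bt hF) A = scl (Fin n) l⁻¹ * ((git (gσ (bt hF) h))⁻¹ * h) := by
      rw [hA, _root_.map_mul, _root_.map_mul, gσ_sc, _root_.map_inv (gσ (bt hF)), gσ_git, ← gσ_mul, bt_sq, gσ_one]
      congr 2
      rw [_root_.map_inv]
      congr 1
      exact Units.ext hlb
    have e2 : git (gσ (bt hF) A) = A⁻¹ := by
      rw [e1, _root_.map_mul git, _root_.map_mul git, _root_.map_inv git, git_git, git_scl, hA, _root_.mul_inv_rev,
        _root_.mul_inv_rev, inv_inv (git h), ← _root_.map_inv (scl (Fin n)), ← sc_comm]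
    have e3 : (git (gσ (bt hF) A))⁻¹ = A := by rw [e2, inv_inv]
    exact congrArg Units.val e3
  -- descend
  let K : Subfield F := RingHom.eqLocusField (σ : F →+* F) (RingHom.id F)
  have hK : ∀ x, x ∈ K ↔ σ x = x := fun x => Iff.rfl
  have he : ∀ a : F, σ a = a ↔ a ∈ Set.range K.subtype := by
    intro a
    constructor
    · intro h; exact ⟨⟨a, h⟩, rfl⟩
    · rintro ⟨b, rfl⟩; exact b.2
  have hKfin : Fintype K := Fintype.ofFinite K
  have hKc : Fintype.card K = q₀ ^ 2 := by
    rw [← hfix, ← Nat.card_eq_fintype_card]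
    exact Nat.card_congr (Equiv.subtypeEquivRight fun x => Iff.rfl)
  obtain ⟨A₀, hA₀⟩ := exists_desc he hσA
  have hτ : ∀ x : K, K.subtype (bt hKc x) = bt hF (K.subtype x) := by
    intro x
    rw [bt_apply, bt_apply, map_pow]
    exact (hpw _ x.2).symm
  have hA₀h : (((A₀ : Matrix (Fin n) (Fin n) K)).map (bt hKc))ᵀ = (A₀ : Matrix (Fin n) (Fin n) K) := by
    ext i j
    have e1 : ∀ i j, K.subtype ((A₀ : Matrix (Fin n) (Fin n) K) i j) = (A : Matrix (Fin n) (Fin n) F) i j := by
      intro i j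
      rw [← hA₀]; rfl
    have e2 := congrFun (congrFun hAh i) j
    rw [Matrix.transpose_apply, Matrix.map_apply] at e2 ⊢
    exact (hτ _).trans ((congrArg _ (e1 j i)).trans (e2.trans (e1 i j).symm))
  obtain ⟨u, hu⟩ := exists_herm_factor (bt hKc) (bt_ne hKc) (bt_bt hKc) A₀ hA₀h
  let U : GL (Fin n) F := Matrix.GeneralLinearGroup.map K.subtype u
  have hu' : A₀ = u * (git (gσ (bt hKc) u))⁻¹ := Units.ext hu
  have hgm : Matrix.GeneralLinearGroup.map K.subtype (git (gσ (bt hKc) u)) = git (gσ (bt hF) U) := by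
    apply Units.ext
    ext i j
    change K.subtype (bt hKc _) = bt hF (K.subtype _)
    exact hτ _
  have hAU : A = U * (git (gσ (bt hF) U))⁻¹ := by
    rw [← hA₀, hu', _root_.map_mul, _root_.map_inv, hgm]
  have hUσ : gσ σ U = U := map_fixed he u
  refine ⟨h * git U, ?_, 1, ?_⟩
  · refine (mem_CGU_git hF (show 1 ≤ n by omega)).mpr ⟨l, ?_⟩
    have e1 : gσ (bt hF) h = scl (Fin n) l * (git h * A) := by
      rw [hA, scl_swap, scl_scl, mul_inv_cancel, _root_.map_one, one_mul, mul_inv_cancel_left]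
    rw [_root_.map_mul (gσ (bt hF)), _root_.map_mul git, git_git, e1, hAU, gσ_git, mul_assoc, mul_assoc,
      inv_mul_cancel_right]
  · rw [_root_.map_one, one_mul, _root_.map_mul, gσ_git, hUσ, _root_.mul_inv_rev, mul_assoc, mul_inv_cancel_left,
      eq_mul_inv_iff_mul_eq]
    exact hh

end Cfsg.Agent.H16.PSU
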