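import Cfsg.Agent.H16_PSp3
import Cfsg.Agent.H16_GamS

set_option autoImplicit false

/-! Symplectic groups: field automorphisms. -/

namespace Cfsg.Agent.H16.PSp

open Matrix Cfsg.Agent.H5 Cfsg.Agent.H5.Symp Cfsg.Agent.H5.Conc Cfsg.Agent.H16.Ps Cfsg.Agent.H16.Gam
  Cfsg.Agent.H16.AutL Cfsg.Agent.H16.AutG Cfsg.Agent.H16.Desc

variable {m : ℕ} {F : Type*} [Field F]

theorem exists_pair (hm : 1 ≤ m) : ∃ e f : Fin m ⊕ Fin m → F, Cfsg.sympForm m F e f = 1 := by
  obtain ⟨e, he, he0⟩ := exists_sg (m := m) (F := F) hm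
  obtain ⟨f, hf, hef⟩ := (spG m F).exists_opp he he0
  exact ⟨e, f, hef⟩

/-- the multiplier. -/
noncomputable def mult (hm : 1 ≤ m) : Cfsg.GSp m F →* Fˣ :=
  let μ : Cfsg.GSp m F → Fˣ := fun g => g.2.choose
  have hμ : ∀ (g : Cfsg.GSp m F) (u v : Fin m ⊕ Fin m → F),
      Cfsg.sympForm m F (((g : GL (Fin m ⊕ Fin m) F) : Matrix (Fin m ⊕ Fin m) (Fin m ⊕ Fin m) F) *ᵥ u)
        (((g : GL (Fin m ⊕ Fin m) F) : Matrix (Fin m ⊕ Fin m) (Fin m ⊕ Fin m) F) *ᵥ v) =
      (μ g : F) * Cfsg.sympForm m F u v := fun g => g.2.choose_spec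
  { toFun := μ
    map_one' := by
      obtain ⟨e, f, h⟩ := exists_pair (F := F) hm
      have := hμ 1 e f
      rw [Subgroup.coe_one, Units.val_one, one_mulVec, one_mulVec, h, mul_one] at this
      exact Units.ext this.symm
    map_mul' := fun a b => by
      obtain ⟨e, f, h⟩ := exists_pair (F := F) hm
      have := hμ (a * b) e f
      rw [Subgroup.coe_mul, coe_mul_mulVec, coe_mul_mulVec, hμ, hμ, h, mul_one, mul_one] at this
      exact Units.ext this.symm }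

theorem mult_spec (hm : 1 ≤ m) (g : Cfsg.GSp m F) (u v : Fin m ⊕ Fin m → F) :
      Cfsg.sympForm m F (((g : GL (Fin m ⊕ Fin m) F) : Matrix (Fin m ⊕ Fin m) (Fin m ⊕ Fin m) F) *ᵥ u)
        (((g : GL (Fin m ⊕ Fin m) F) : Matrix (Fin m ⊕ Fin m) (Fin m ⊕ Fin m) F) *ᵥ v) =
      (mult hm g : F) * Cfsg.sympForm m F u v := g.2.choose_spec u v

theorem mult_eq (hm : 1 ≤ m) {g : Cfsg.GSp m F} {c : Fˣ} (h : ∀ u v : Fin m ⊕ Fin m → F,
      Cfsg.sympForm m F (((g : GL (Fin m ⊕ Fin m) F) : Matrix (Fin m ⊕ Fin m) (Fin m ⊕ Fin m) F) *ᵥ u)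
        (((g : GL (Fin m ⊕ Fin m) F) : Matrix (Fin m ⊕ Fin m) (Fin m ⊕ Fin m) F) *ᵥ v) =
      (c : F) * Cfsg.sympForm m F u v) : mult hm g = c := by
  obtain ⟨e, f, hef⟩ := exists_pair (F := F) hm
  have h1 := mult_spec hm g e f
  rw [h, hef, mul_one, mul_one] at h1
  exact Units.ext h1.symm

theorem mult_scl (hm : 1 ≤ m) (c : Fˣ) : mult (F := F) hm ⟨scl (Fin m ⊕ Fin m) c, scal_mem c⟩ = c ^ 2 := by
  apply mult_eq
  intro u v
  rw [scl_mulVec, scl_mulVec, Symp.smul_left, Symp.smul_right, ← mul_assoc, ← Units.val_mul, sq]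

/-- the standard element with multiplier `a`. -/
def dm (m : ℕ) {F : Type*} [Field F] (a : Fˣ) : GL (Fin m ⊕ Fin m) F :=
  ⟨Matrix.diagonal (Sum.elim (fun _ => (a : F)) (fun _ => 1)),
    Matrix.diagonal (Sum.elim (fun _ => ((a⁻¹ : Fˣ) : F)) (fun _ => 1)), by
    rw [diagonal_mul_diagonal, ← diagonal_one]
    congr 1
    funext i
    rcases i with i | i <;> simp, by
    rw [diagonal_mul_diagonal, ← diagonal_one]
    congr 1
    funext i
    rcases i with i | i <;> simp⟩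

theorem dm_form (a : Fˣ) (u v : Fin m ⊕ Fin m → F) :
    Cfsg.sympForm m F ((dm m a : Matrix (Fin m ⊕ Fin m) (Fin m ⊕ Fin m) F) *ᵥ u)
      ((dm m a : Matrix (Fin m ⊕ Fin m) (Fin m ⊕ Fin m) F) *ᵥ v) = (a : F) * Cfsg.sympForm m F u v := by
  have h1 : ∀ w : Fin m ⊕ Fin m → F, (dm m a : Matrix (Fin m ⊕ Fin m) (Fin m ⊕ Fin m) F) *ᵥ w =
      fun i => Sum.elim (fun _ => (a : F)) (fun _ => 1) i * w i := by
    intro w
    funext i
    exact Matrix.mulVec_diagonal _ _ _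
  rw [h1, h1]
  simp only [Cfsg.sympForm, dotProduct, Matrix.mulVec, Matrix.J, Fintype.sum_sum_type, Matrix.fromBlocks_apply₁₁,
    Matrix.fromBlocks_apply₁₂, Matrix.fromBlocks_apply₂₁, Matrix.fromBlocks_apply₂₂, Sum.elim_inl, Sum.elim_inr,
    Matrix.zero_apply, Matrix.neg_apply, Matrix.one_apply]
  simp only [zero_mul, Finset.sum_const_zero, zero_add, add_zero, neg_mul, ite_mul, one_mul, Finset.sum_neg_distrib,
    Finset.sum_ite_eq, Finset.mem_univ, if_true, mul_neg, mul_add, Finset.mul_sum]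
  congr 1
  · congr 1
    exact Finset.sum_congr rfl fun i _ => by ring
  · exact Finset.sum_congr rfl fun i _ => by ring

theorem dm_mem (a : Fˣ) : dm m a ∈ Cfsg.GSp m F := ⟨a, dm_form a⟩

theorem mult_surj (hm : 1 ≤ m) : Function.Surjective (mult (F := F) hm) := fun a =>
  ⟨⟨dm m a, dm_mem a⟩, mult_eq hm (dm_form a)⟩

variable [Finite F]

/-- the multiplier as a character of `N`. -/
noncomputable def chi (hm : 2 ≤ m) : (fam hm F).N →* Fˣ := mult (show 1 ≤ m by omega)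

theorem chi_one (hm : 2 ≤ m) (g : (fam hm F).N) (h : chi hm g = 1) : ∃ s, toG m F s = g := by
  apply exists_toG
  intro u v
  have h1 := mult_spec (show 1 ≤ m by omega) (show Cfsg.GSp m F from g) u v
  change mult (show 1 ≤ m by omega) g = 1 at h
  rw [h, Units.val_one, one_mul] at h1
  exact h1

theorem chi_inn (hm : 2 ≤ m) (g : (fam hm F).N) (h : chi hm g = 1) :
    (fam hm F).T ((fam hm F).nin g) ∈ Cfsg.Inn (Matrix.symplecticGroup (Fin m) F ⧸ Subgroup.center (Matrix.symplecticGroup (Fin m) F)) := by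
  obtain ⟨s, hs⟩ := chi_one hm g h
  refine ⟨QuotientGroup.mk s, ?_⟩
  rw [← (fam hm F).T_inc s]
  congr 1
  apply Subtype.ext
  rw [Fam.coe_nin, ← hs]
  rfl

theorem chi_s (hm : 2 ≤ m) (s : Matrix.symplecticGroup (Fin m) F) : chi hm ⟨(fam hm F).ρ s, (fam hm F).inn s⟩ = 1 := by
  apply mult_eq (show 1 ≤ m by omega)
  intro u v
  rw [Units.val_one, one_mul]
  exact toG_form s u v

theorem even_inn (hm : 2 ≤ m) (h2 : (2 : F) = 0) : (fam hm F).D =
    Cfsg.Inn (Matrix.symplecticGroup (Fin m) F ⧸ Subgroup.center (Matrix.symplecticGroup (Fin m) F)) := by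
  apply le_antisymm
  · rintro _ ⟨g, rfl⟩
    have : Fintype F := Fintype.ofFinite F
    have hc2 : CharP F 2 := CharTwo.of_one_ne_zero_of_two_eq_zero one_ne_zero h2
    obtain ⟨c, hc⟩ : ∃ c : F, (chi hm g : F) = c * c := FiniteField.isSquare_of_char_two (ringChar.eq F 2) _
    have hc0 : c ≠ 0 := by
      rintro rfl
      rw [mul_zero] at hc
      exact (chi hm g).ne_zero hc
    have h3 : chi hm (⟨scl _ (Units.mk0 c hc0)⁻¹, (fam hm F).sc _⟩ * g) = 1 := by
      rw [_root_.map_mul]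
      have h4 : chi hm ⟨scl _ (Units.mk0 c hc0)⁻¹, (fam hm F).sc _⟩ = ((Units.mk0 c hc0)⁻¹) ^ 2 :=
        mult_scl (show 1 ≤ m by omega) _
      have h5 : chi hm g = (Units.mk0 c hc0) ^ 2 := by
        apply Units.ext
        rw [hc, sq]
        rfl
      rw [h4, h5, ← mul_pow, inv_mul_cancel, one_pow]
    have h4 := chi_inn hm _ h3
    rw [_root_.map_mul, _root_.map_mul, (Fam.ker_nin _).mpr ⟨_, rfl⟩, one_mul] at h4
    exact h4
  · exact (fam hm F).inn_le_D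

theorem D_normal (hm : 2 ≤ m) : (fam hm F).D.Normal := by
  by_cases h2 : (2 : F) = 0
  · rw [even_inn hm h2]
    infer_instance
  · exact (full_odd hm h2).D_normal

/-- the centralizer. -/
theorem cent_fieldSp (hm : 2 ≤ m) {σ : F ≃+* F} {q₀ : ℕ}
    (hcard : Nat.card F = q₀ ^ orderOf σ) (hfix : Nat.card {x : F // σ x = x} = q₀)
    (F₀ : Type*) [Field F₀] [Fintype F₀] (hF₀ : Fintype.card F₀ = q₀) :
    Nonempty (↥((fam hm F).D ⊓ Subgroup.centralizer {(fam hm F).T (Fam.fin (fam_hasField hm) σ)}) ≃*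
      Cfsg.PGSp m F₀) := by
  obtain ⟨e, he⟩ := exists_emb hcard hfix F₀ hF₀
  have hnt : Nonempty (Fin m ⊕ Fin m) := ⟨Sum.inl ⟨0, by omega⟩⟩
  apply (fam hm F).cent_field (fam_hasField hm) (orderOf_pos σ) he (Cfsg.GSp m F₀)
  have hform : ∀ x y : Fin m ⊕ Fin m → F₀, Cfsg.sympForm m F (fun i => e (x i)) (fun i => e (y i)) =
      e (Cfsg.sympForm m F₀ x y) := by
    intro x y
    simp only [Cfsg.sympForm, dotProduct, Matrix.mulVec, Matrix.J, map_sum, map_mul]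
    refine Finset.sum_congr rfl fun i _ => ?_
    congr 1
    refine Finset.sum_congr rfl fun j _ => ?_
    congr 1
    rcases i with i | i <;> rcases j with j | j <;>
      simp [Matrix.fromBlocks, Matrix.one_apply, apply_ite e, Matrix.neg_apply]
  have hmv : ∀ (g : GL (Fin m ⊕ Fin m) F₀) (x : Fin m ⊕ Fin m → F₀),
      ((Matrix.GeneralLinearGroup.map e g : GL (Fin m ⊕ Fin m) F) : Matrix (Fin m ⊕ Fin m) (Fin m ⊕ Fin m) F) *ᵥ
        (fun i => e (x i)) = fun i => e (((g : Matrix (Fin m ⊕ Fin m) (Fin m ⊕ Fin m) F₀) *ᵥ x) i) := by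
    intro g x
    funext i
    change ((g : Matrix (Fin m ⊕ Fin m) (Fin m ⊕ Fin m) F₀).map e *ᵥ _) i = _
    simp only [Matrix.mulVec, dotProduct, map_sum, map_mul, Matrix.map_apply]
  intro g
  constructor
  · rintro ⟨c, hc⟩
    refine ⟨Units.map (e : F₀ →* F) c, fun u v => ?_⟩
    -- bilinear comparison
    let G : Matrix (Fin m ⊕ Fin m) (Fin m ⊕ Fin m) F := ((Matrix.GeneralLinearGroup.map e g : GL (Fin m ⊕ Fin m) F) : Matrix (Fin m ⊕ Fin m) (Fin m ⊕ Fin m) F)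
    let C : LinearMap.BilinForm F (Fin m ⊕ Fin m → F) := LinearMap.mk₂ F
      (fun x y => Cfsg.sympForm m F (G *ᵥ x) (G *ᵥ y))
      (by intro x x' y; simp only [mulVec_add, Symp.add_left])
      (by intro c x y; simp only [mulVec_smul, Symp.smul_left, smul_eq_mul])
      (by intro x y y'; simp only [mulVec_add, Symp.add_right])
      (by intro c x y; simp only [mulVec_smul, Symp.smul_right, smul_eq_mul])
    have hC : C = (e (c : F₀)) • sympB m F := by
      apply LinearMap.ext_basis (Pi.basisFun F _) (Pi.basisFun F _)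
      intro i j
      rw [Pi.basisFun_apply, Pi.basisFun_apply, LinearMap.smul_apply, LinearMap.smul_apply, sympB_apply]
      have hs : ∀ i : Fin m ⊕ Fin m, (Pi.single i 1 : Fin m ⊕ Fin m → F) =
          fun j => e ((Pi.single i 1 : Fin m ⊕ Fin m → F₀) j) := by
        intro i
        funext j
        simp [Pi.single_apply, apply_ite e]
      change Cfsg.sympForm m F (G *ᵥ _) (G *ᵥ _) = _
      rw [hs i, hs j, hmv, hmv, hform, hc, hform, map_mul]
      rfl
    have := congrArg (fun D : LinearMap.BilinForm F (Fin m ⊕ Fin m → F) => D u v) hC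
    simp only [LinearMap.smul_apply, sympB_apply] at this
    exact this
  · rintro ⟨c, hc⟩
    obtain ⟨u₀, v₀, huv⟩ := exists_pair (m := m) (F := F₀) (by omega)
    have h1 := hc (fun i => e (u₀ i)) (fun i => e (v₀ i))
    change Cfsg.sympForm m F (((Matrix.GeneralLinearGroup.map e g : GL (Fin m ⊕ Fin m) F) : Matrix (Fin m ⊕ Fin m) (Fin m ⊕ Fin m) F) *ᵥ _) (((Matrix.GeneralLinearGroup.map e g : GL (Fin m ⊕ Fin m) F) : Matrix (Fin m ⊕ Fin m) (Fin m ⊕ Fin m) F) *ᵥ _) = _ at h1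
    rw [hmv, hmv, hform, hform, huv, map_one, mul_one] at h1
    have hc0 : Cfsg.sympForm m F₀ ((g : Matrix (Fin m ⊕ Fin m) (Fin m ⊕ Fin m) F₀) *ᵥ u₀) ((g : Matrix (Fin m ⊕ Fin m) (Fin m ⊕ Fin m) F₀) *ᵥ v₀) ≠ 0 := by
      intro h0
      rw [h0, map_zero] at h1
      exact c.ne_zero h1.symm
    refine ⟨Units.mk0 _ hc0, fun u v => ?_⟩
    apply e.injective
    have h2 := hc (fun i => e (u i)) (fun i => e (v i))
    change Cfsg.sympForm m F (((Matrix.GeneralLinearGroup.map e g : GL (Fin m ⊕ Fin m) F) : Matrix (Fin m ⊕ Fin m) (Fin m ⊕ Fin m) F) *ᵥ _) (((Matrix.GeneralLinearGroup.map e g : GL (Fin m ⊕ Fin m) F) : Matrix (Fin m ⊕ Fin m) (Fin m ⊕ Fin m) F) *ᵥ _) = _ at h2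
    rw [hmv, hmv, hform, hform, ← h1] at h2
    rw [h2, map_mul]
    rfl

theorem split_fieldSp (hm : 2 ≤ m) {σ : F ≃+* F} {q₀ : ℕ} (hq : 2 ≤ q₀)
    (hcard : Nat.card F = q₀ ^ orderOf σ) (hfix : Nat.card (FixU σ) = q₀ - 1) :
    Cfsg.splitClassCount (fam hm F).D (Cfsg.Inn (Matrix.symplecticGroup (Fin m) F ⧸ Subgroup.center (Matrix.symplecticGroup (Fin m) F)))
      ((fam hm F).T (Fam.fin (fam_hasField hm) σ)) = Nat.gcd 2 ((q₀ ^ orderOf σ - 1) / (q₀ - 1)) := by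
  have hFU : Nat.card Fˣ = q₀ ^ orderOf σ - 1 := by
    have := Fintype.ofFinite F
    exact H5.GL.card_units (by rw [← hcard, Nat.card_eq_fintype_card])
  have hnt : Nonempty (Fin m ⊕ Fin m) := ⟨Sum.inl ⟨0, by omega⟩⟩
  have hr0 : 0 < orderOf σ := orderOf_pos σ
  rw [(fam hm F).split (chi hm) (mult_surj (by omega)) (chi_inn hm) (chi_s hm)]
  have h1 : (((Subgroup.centralizer {(fam hm F).T (Fam.fin (fam_hasField hm) σ)}).comap
      ((fam hm F).T.comp (fam hm F).nin)).map (chi hm) ⊔ ((fam hm F).T.comp (fam hm F).nin).ker.map (chi hm)) =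
      (powMonoidHom 2 : Fˣ →* Fˣ).range ⊔ FixU σ := by
    have hker : ((fam hm F).T.comp (fam hm F).nin).ker.map (chi hm) = (powMonoidHom 2 : Fˣ →* Fˣ).range := by
      apply le_antisymm
      · rintro _ ⟨g, hg, rfl⟩
        obtain ⟨c, hc⟩ := (Fam.ker_nin g).mp hg
        refine ⟨c, ?_⟩
        have : g = ⟨scl _ c, (fam hm F).sc c⟩ := Subtype.ext hc
        rw [this]
        exact (mult_scl (show 1 ≤ m by omega) c).symm
      · rintro _ ⟨c, rfl⟩
        exact ⟨⟨scl _ c, (fam hm F).sc c⟩, (Fam.ker_nin _).mpr ⟨c, rfl⟩, mult_scl (show 1 ≤ m by omega) c⟩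
    rw [hker, sup_comm]
    apply le_antisymm
    · rw [sup_le_iff]
      refine ⟨le_sup_left, ?_⟩
      rintro _ ⟨g, hg, rfl⟩
      obtain ⟨c, hc⟩ := ((fam hm F).comm_iff (fam_hasField hm)).mp hg
      obtain ⟨t, g₀, hgt, hg₀⟩ := exists_fixed_of_sc rfl hr0 hc
      have hg0N : g₀ ∈ (fam hm F).N := by
        have : g₀ = scl _ t⁻¹ * (g : GL (Fin m ⊕ Fin m) F) := by
          rw [hgt, ← mul_assoc, ← _root_.map_mul, inv_mul_cancel, _root_.map_one, one_mul]
        rw [this]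
        exact mul_mem ((fam hm F).sc _) g.2
      have h5 : g = ⟨scl _ t, (fam hm F).sc t⟩ * ⟨g₀, hg0N⟩ := Subtype.ext hgt
      rw [h5, _root_.map_mul]
      refine mul_mem (Subgroup.mem_sup_left ⟨t, (mult_scl (show 1 ≤ m by omega) t).symm⟩) (Subgroup.mem_sup_right ?_)
      rw [mem_FixU]
      obtain ⟨u, v, huv⟩ := exists_pair (m := m) (F := F) (by omega)
      have h6 := mult_spec (show 1 ≤ m by omega) (⟨g₀, hg0N⟩ : Cfsg.GSp m F) u v
      have h7 := mult_spec (show 1 ≤ m by omega) (⟨g₀, hg0N⟩ : Cfsg.GSp m F) (fun i => σ (u i)) (fun i => σ (v i))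
      have h8 : ∀ w : Fin m ⊕ Fin m → F, (g₀ : Matrix (Fin m ⊕ Fin m) (Fin m ⊕ Fin m) F) *ᵥ (fun i => σ (w i)) =
          fun i => σ (((g₀ : Matrix (Fin m ⊕ Fin m) (Fin m ⊕ Fin m) F) *ᵥ w) i) := by
        intro w
        have := map_mulVec' σ g₀ w
        rwa [hg₀] at this
      change Cfsg.sympForm m F ((g₀ : Matrix (Fin m ⊕ Fin m) (Fin m ⊕ Fin m) F) *ᵥ _) ((g₀ : Matrix (Fin m ⊕ Fin m) (Fin m ⊕ Fin m) F) *ᵥ _) = _ at h6
      change Cfsg.sympForm m F ((g₀ : Matrix (Fin m ⊕ Fin m) (Fin m ⊕ Fin m) F) *ᵥ _) ((g₀ : Matrix (Fin m ⊕ Fin m) (Fin m ⊕ Fin m) F) *ᵥ _) = _ at h7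
      rw [h8, h8, form_map, form_map, h6, huv, mul_one, map_one, mul_one] at h7
      exact h7
    · rw [sup_le_iff]
      refine ⟨le_sup_left, ?_⟩
      intro a ha
      refine Subgroup.mem_sup_right ⟨⟨dm m a, dm_mem a⟩, ?_, mult_eq (show 1 ≤ m by omega) (dm_form a)⟩
      refine ((fam hm F).comm_iff (fam_hasField hm)).mpr ⟨1, ?_⟩
      rw [_root_.map_one, one_mul]
      apply Units.ext
      change (diagonal (Sum.elim (fun _ : Fin m => (a : F)) (fun _ : Fin m => (1 : F)))).map σ =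
        diagonal (Sum.elim (fun _ : Fin m => (a : F)) (fun _ : Fin m => (1 : F)))
      rw [diagonal_map (_root_.map_zero σ)]
      congr 1
      funext i
      rcases i with i | i
      · exact ha
      · exact map_one σ
  rw [h1, Split.eq_powers (H := FixU σ) (m := (q₀ ^ orderOf σ - 1) / (q₀ - 1)), Split.powers_sup,
    IsCyclic.index_powMonoidHom_range, hFU]
  · rw [Nat.gcd_comm]
    apply Nat.gcd_eq_left
    exact (Nat.gcd_dvd_right _ _).trans (Nat.div_dvd_of_dvd (by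
      simpa using Nat.sub_dvd_pow_sub_pow q₀ 1 (orderOf σ)))
  · rw [hfix, hFU]
    exact Nat.mul_div_cancel' (by simpa using Nat.sub_dvd_pow_sub_pow q₀ 1 (orderOf σ))

end Cfsg.Agent.H16.PSp
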