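import Cfsg.Agent.H16_PSp4
import Cfsg.Agent.H16_PolE

set_option autoImplicit false

/-! Symplectic groups in even characteristic: automorphisms permute the points when `m ≥ 3`. -/

namespace Cfsg.Agent.H16.PSp

open Matrix Cfsg.Agent.H5 Cfsg.Agent.H5.Symp Cfsg.Agent.H5.Conc Cfsg.Agent.H16.Ps Cfsg.Agent.H16.Gam
  Cfsg.Agent.H16.AutL Cfsg.Agent.H16.AutG Cfsg.Agent.H16.Desc Module

variable {m : ℕ} {F : Type*} [Field F]

theorem hrel_even [Finite F] (hm : 3 ≤ m) (h2 : (2 : F) = 0) (α : MulAut (Cfsg.PSp m F))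
    (v : Fin m ⊕ Fin m → F) (hv0 : v ≠ 0) : ∃ v', (spT (show 1 ≤ m by omega) F).Rel α v v' := by
  have hm1 : 1 ≤ m := by omega
  have hm2 : 2 ≤ m := by omega
  have : Finite (Matrix.symplecticGroup (Fin m) F) :=
    Finite.of_injective (fun s : Matrix.symplecticGroup (Fin m) F =>
      (s : Matrix (Fin m ⊕ Fin m) (Fin m ⊕ Fin m) F)) Subtype.val_injective
  have hsym : ∀ x y, (spG m F).h x y = (spG m F).h y x := by
    intro x y
    have h1 : (-1 : F) = 1 := by linear_combination (-1 : F) * h2
    rw [(spG m F).h_symm y x, spG_eps, spG_bar, h1, one_mul]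
  refine (spT hm1 F).rel_of_BT (PolG.big_of_rich rich) ?_ (irr hm2)
    (fun v hv hv0 s hs t ht => PolG.Q_comm (P := spG m F) hsym hv hv0 hs ht) ?_ α trivial hv0
  · intro v f hv hf hvf
    obtain ⟨x, hx, -, hx0⟩ := hne hm2 v f hv hf hvf
    exact ⟨x, hx, hx0⟩
  · intro v hv hv0 W hWs hWi hex hc
    change Nat.card ((spG m F).Q v) < Nat.card ((spG m F).RR W)
    have hrk : 2 * finrank F W = finrank F (Fin m ⊕ Fin m → F) :=
      (spG m F).finrank_eq_of_orth hWi fun u hu u' hu' =>
        PolG.perp_of_comm (P := spG m F) hWs hWi hex hc hu hu'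
    rw [Module.finrank_fintype_fun_eq_card, Fintype.card_sum, Fintype.card_fin] at hrk
    have hrk' : finrank F W = m := by omega
    let b₀ := finBasisOfFinrankEq F W hrk'
    let b : Fin m → (Fin m ⊕ Fin m → F) := fun i => (b₀ i : Fin m ⊕ Fin m → F)
    have hb : LinearIndependent F b := b₀.linearIndependent.map' W.subtype (Submodule.ker_subtype W)
    have hbW : ∀ i, b i ∈ W := fun i => (b₀ i).2
    have hb0 : ∀ i, b i ≠ 0 := fun i => hb.ne_zero i
    set J := Finset.univ.filter fun p : Fin m × Fin m => p.1 ≤ p.2 with hJ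
    have h1 := PolG.card_RR (P := spG m F) hWi hbW hb J (fun p hp => (Finset.mem_filter.mp hp).2) (by
      intro p hp c
      by_cases hpp : p.1 = p.2
      · refine ⟨T (b p.1) (-c), ?_, ?_⟩
        · refine ⟨fun w hw => ?_, fun x hx => ?_⟩
          · have h3 : Cfsg.sympForm m F w (b p.1) = 0 := hWi w hw _ (hbW _)
            rw [spG_r, T_apply, h3]
            simp
          · have h3 : Cfsg.sympForm m F x (b p.1) = 0 := by
              rw [Symp.swap (b p.1) x, neg_eq_zero]
              exact hx _ (hbW _)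
            rw [spG_r, T_apply, h3, mul_zero, zero_smul, add_zero, sub_self]
            exact W.zero_mem
        · intro x
          rw [spG_r, T_apply, if_pos hpp, zero_smul, add_zero, Symp.swap (b p.1) x, ← hpp, spG_h]
          congr 2
          ring
      · obtain ⟨s, hs, h3⟩ := PolG.exRR_pair (P := spG m F) hWs hWi (hbW p.1) (hbW p.2) (hb0 p.1) (by
          intro d hd
          obtain ⟨y, hy⟩ := (spG m F).dual_surj hb (Pi.single p.1 1)
          have e1 : (spG m F).h (b p.1) y = 1 := by
            have := congrFun hy p.1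
            rwa [Pi.single_eq_same] at this
          have e2 : (spG m F).h (b p.2) y = 0 := by
            have := congrFun hy p.2
            rwa [Pi.single_eq_of_ne (Ne.symm hpp)] at this
          rw [hd, (spG m F).h_smul_left, e2, mul_zero] at e1
          exact zero_ne_one e1) c
        refine ⟨s, hs, fun x => ?_⟩
        rw [h3, if_neg hpp])
    have h3 := PolG.card_Q_le (P := spG m F) hv hv0
    have hJc := card_le m
    rw [← hJ] at hJc
    have hq : 2 ≤ Nat.card F := Finite.one_lt_card
    have hV : Nat.card (Fin m ⊕ Fin m → F) = Nat.card F ^ (2 * m) := by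
      rw [Nat.card_fun, Nat.card_eq_fintype_card (α := Fin m ⊕ Fin m), Fintype.card_sum, Fintype.card_fin, two_mul]
    have h4 : Nat.card ((spG m F).Q v) * Nat.card F ≤ Nat.card F ^ (2 * m - 1) * Nat.card F := by
      rw [← pow_succ, show 2 * m - 1 + 1 = 2 * m by omega, ← hV]
      exact h3
    have h5 := Nat.le_of_mul_le_mul_right h4 (by omega)
    have h6 : 2 * m - 1 < J.card := by
      clear_value J
      obtain ⟨j, rfl⟩ : ∃ j, m = j + 3 := ⟨m - 3, by omega⟩
      have : 2 * J.card = j * j + 7 * j + 12 := by rw [hJc]; ring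
      have h7 : 0 ≤ j * j := Nat.zero_le _
      omega
    exact lt_of_le_of_lt h5 (lt_of_lt_of_le (Nat.pow_lt_pow_right (by omega) h6) h1)

theorem full [Finite F] (hm : 2 ≤ m) (h4 : m = 2 → (2 : F) ≠ 0) : (fam hm F).Full := by
  by_cases h2 : (2 : F) = 0
  · have hm3 : 3 ≤ m := by
      rcases Nat.lt_or_ge m 3 with h | h
      · exact absurd h2 (h4 (by omega))
      · exact h
    exact full_of_rel hm (fun α v hv => hrel_even hm3 h2 α v hv)
  · exact full_odd hm h2

end Cfsg.Agent.H16.PSp
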