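import Cfsg.Agent.H16_POm9
import Cfsg.Agent.H16_Max
import Cfsg.Agent.H16_MaxStd

set_option autoImplicit false

/-! The parity character of semisimilarities. -/

namespace Cfsg.Agent.H16.Par

open Matrix Cfsg.Agent.H16.Ps Module Cfsg.Agent.H16.Gam Cfsg.Agent.H16.AutL Cfsg.Agent.H16.AutG Cfsg.Agent.H16.Desc
open QuadraticMap (polar)
open Cfsg.Agent.H16 Cfsg.Agent.H16.POm

variable {ι : Type} [Fintype ι] [DecidableEq ι] {F : Type*} [Field F]

/-- the semilinear map. -/
def sl (x : Gm ι F) (v : ι → F) : ι → F := (x.left : Matrix ι ι F) *ᵥ fun i => x.right (v i)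

theorem sl_one (v : ι → F) : sl (1 : Gm ι F) v = v := by
  rw [sl, SemidirectProduct.one_left, SemidirectProduct.one_right, Units.val_one, one_mulVec]
  rfl

theorem sl_mul (x y : Gm ι F) (v : ι → F) : sl (x * y) v = sl x (sl y v) := by
  rw [sl, SemidirectProduct.mul_left, SemidirectProduct.mul_right, PSp.coe_mul_mulVec, gsH_apply, sl, sl]
  congr 1
  exact map_mulVec' x.right y.left (fun i => y.right (v i))

theorem sl_add (x : Gm ι F) (v w : ι → F) : sl x (v + w) = sl x v + sl x w := by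
  rw [sl, sl, sl, ← mulVec_add]
  congr 1
  funext i
  exact map_add _ _ _

theorem sl_smul (x : Gm ι F) (a : F) (v : ι → F) : sl x (a • v) = x.right a • sl x v := by
  rw [sl, sl, ← mulVec_smul]
  congr 1
  funext i
  exact map_mul _ _ _

theorem sl_zero (x : Gm ι F) : sl x 0 = 0 := by
  have := sl_smul x 0 0
  rwa [zero_smul, map_zero, zero_smul] at this

theorem sl_inv_sl (x : Gm ι F) (v : ι → F) : sl x⁻¹ (sl x v) = v := by
  rw [← sl_mul, inv_mul_cancel, sl_one]

theorem sl_sl_inv (x : Gm ι F) (v : ι → F) : sl x (sl x⁻¹ v) = v := by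
  rw [← sl_mul, mul_inv_cancel, sl_one]

/-- the image of a subspace. -/
def im (x : Gm ι F) (U : Submodule F (ι → F)) : Submodule F (ι → F) where
  carrier := {w | sl x⁻¹ w ∈ U}
  zero_mem' := by
    change sl x⁻¹ 0 ∈ U
    rw [sl_zero]
    exact U.zero_mem
  add_mem' := by
    intro v w hv hw
    change sl x⁻¹ (v + w) ∈ U
    rw [sl_add]
    exact U.add_mem hv hw
  smul_mem' := by
    intro a v hv
    change sl x⁻¹ (a • v) ∈ U
    rw [sl_smul]
    exact U.smul_mem _ hv

theorem mem_im {x : Gm ι F} {U : Submodule F (ι → F)} {w : ι → F} : w ∈ im x U ↔ sl x⁻¹ w ∈ U := Iff.rfl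

theorem sl_mem_im {x : Gm ι F} {U : Submodule F (ι → F)} {w : ι → F} : sl x w ∈ im x U ↔ w ∈ U := by
  rw [mem_im, sl_inv_sl]

theorem im_mul (x y : Gm ι F) (U : Submodule F (ι → F)) : im (x * y) U = im x (im y U) := by
  ext w
  rw [mem_im, mem_im, mem_im, _root_.mul_inv_rev, sl_mul]

theorem im_one (U : Submodule F (ι → F)) : im 1 U = U := by
  ext w
  rw [mem_im, inv_one, sl_one]

theorem im_inf (x : Gm ι F) (U W : Submodule F (ι → F)) : im x (U ⊓ W) = im x U ⊓ im x W := rfl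

theorem sl_inl (g : GL ι F) (v : ι → F) : sl (SemidirectProduct.inl g) v = (g : Matrix ι ι F) *ᵥ v := rfl

theorem im_inl (g : GL ι F) (U : Submodule F (ι → F)) :
    im (SemidirectProduct.inl g) U = U.map (Matrix.toLin' (g : Matrix ι ι F)) := by
  ext w
  rw [mem_im]
  constructor
  · intro h
    refine ⟨_, h, ?_⟩
    rw [Matrix.toLin'_apply]
    exact sl_sl_inv (SemidirectProduct.inl g) w
  · rintro ⟨v, hv, rfl⟩
    rw [Matrix.toLin'_apply, ← sl_inl, sl_inv_sl]
    exact hv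

theorem im_scl (c : Fˣ) (U : Submodule F (ι → F)) : im (SemidirectProduct.inl (scl ι c)) U = U := by
  ext w
  rw [mem_im, ← _root_.map_inv, ← _root_.map_inv, sl_inl, PSp.scl_mulVec]
  exact U.smul_mem_iff (c⁻¹).ne_zero

theorem finrank_im [Finite F] (x : Gm ι F) (U : Submodule F (ι → F)) : finrank F (im x U) = finrank F U := by
  have := Fintype.ofFinite F
  have h1 : Nat.card (im x U) = Nat.card U := by
    refine Nat.card_congr (Equiv.ofBijective (fun w : im x U => (⟨sl x⁻¹ (w : ι → F), w.2⟩ : U)) ⟨?_, ?_⟩)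
    · intro v w h
      have h2 := congrArg (fun z : U => sl x (z : ι → F)) h
      simp only [sl_sl_inv] at h2
      exact Subtype.ext h2
    · rintro ⟨u, hu⟩
      exact ⟨⟨sl x u, sl_mem_im.mpr hu⟩, Subtype.ext (sl_inv_sl x u)⟩
  have h2 : Nat.card (im x U) = Nat.card F ^ finrank F (im x U) := Module.natCard_eq_pow_finrank
  have h3 : Nat.card U = Nat.card F ^ finrank F U := Module.natCard_eq_pow_finrank
  rw [h2, h3] at h1
  exact Nat.pow_right_injective (by
    rw [Nat.card_eq_fintype_card]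
    exact Fintype.one_lt_card) h1

theorem sl_Q {Q : (ι → F) → F} {x : Gm ι F} (hx : x ∈ GamO Q) {v : ι → F} : Q (sl x v) = 0 ↔ Q v = 0 := by
  obtain ⟨c, hc⟩ := hx
  rw [sl, hc, mul_eq_zero, or_iff_right c.ne_zero, map_eq_zero]

theorem isMax_im [Finite F] {Q : QuadraticForm F (ι → F)} {x : Gm ι F} (hx : x ∈ GamO ⇑Q) {U : Submodule F (ι → F)}
    (hU : Quad.IsMax Q U) : Quad.IsMax Q (im x U) := by
  refine ⟨?_, by rw [finrank_im]; exact hU.2⟩
  intro u hu
  have := (sl_Q (inv_mem hx)).mp (hU.1 _ hu)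
  exact this

theorem up_eq {a b : ℕ} (h : a % 2 = b % 2) : ((-1 : ℤˣ)) ^ a = (-1) ^ b := by
  rcases Nat.even_or_odd a with ha | ha
  · have hb : Even b := by rw [Nat.even_iff] at ha ⊢; omega
    rw [ha.neg_one_pow, hb.neg_one_pow]
  · have hb : Odd b := by rw [Nat.odd_iff] at ha ⊢; omega
    rw [ha.neg_one_pow, hb.neg_one_pow]

/-- the relative parity. -/
noncomputable def pr (U W : Submodule F (ι → F)) : ℤˣ := (-1) ^ (finrank F U + finrank F (U ⊓ W : Submodule F (ι → F)))

theorem pr_self (U : Submodule F (ι → F)) : pr U U = 1 := by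
  rw [pr, inf_idem]
  exact (Even.add_self _).neg_one_pow

theorem pr_mul {Q : QuadraticForm F (ι → F)} (hQ : (QuadraticMap.polarBilin Q).Nondegenerate)
    {U W X : Submodule F (ι → F)} (hU : Quad.IsMax Q U)
    (hW : Quad.IsMax Q W) (hX : Quad.IsMax Q X) : pr U W * pr W X = pr U X := by
  have h1 := Quad.parity_triple hQ hU hW hX
  have h2 := hU.2
  have h3 := hW.2
  have h4 : finrank F U = finrank F W := by omega
  rw [pr, pr, pr, ← pow_add, ← h4]
  apply up_eq
  rw [Nat.even_iff] at h1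
  omega

theorem pr_im [Finite F] (x : Gm ι F) (U W : Submodule F (ι → F)) : pr (im x U) (im x W) = pr U W := by
  rw [pr, pr, ← im_inf, finrank_im, finrank_im]

/-- the parity character. -/
noncomputable def parH [Finite F] {Q : QuadraticForm F (ι → F)} (hQ : (QuadraticMap.polarBilin Q).Nondegenerate)
    {U : Submodule F (ι → F)} (hU : Quad.IsMax Q U) : GamO ⇑Q →* ℤˣ where
  toFun x := pr U (im (x : Gm ι F) U)
  map_one' := by rw [Subgroup.coe_one, im_one, pr_self]
  map_mul' x y := by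
    rw [Subgroup.coe_mul, im_mul, ← pr_mul hQ hU (isMax_im x.2 hU) (isMax_im x.2 (isMax_im y.2 hU)), pr_im]

theorem parH_apply [Finite F] {Q : QuadraticForm F (ι → F)} (hQ : (QuadraticMap.polarBilin Q).Nondegenerate)
    {U : Submodule F (ι → F)} (hU : Quad.IsMax Q U) (x : GamO ⇑Q) : parH hQ hU x = pr U (im (x : Gm ι F) U) := rfl

theorem parH_indep [Finite F] {Q : QuadraticForm F (ι → F)} (hQ : (QuadraticMap.polarBilin Q).Nondegenerate)
    {U W : Submodule F (ι → F)} (hU : Quad.IsMax Q U) (hW : Quad.IsMax Q W) (x : GamO ⇑Q) :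
    pr W (im (x : Gm ι F) W) = parH hQ hU x := by
  have h1 := isMax_im x.2 hU
  have h2 := isMax_im x.2 hW
  rw [parH_apply, ← pr_mul hQ hW hU h2, ← pr_mul hQ hU h1 h2, pr_im, mul_left_comm, pr_mul hQ hW hU hW, pr_self, mul_one]

/-- parity of isometries. -/
theorem parH_rpr [Finite F] {Q : QuadraticForm F (ι → F)} (hQ : (QuadraticMap.polarBilin Q).Nondegenerate)
    {U : Submodule F (ι → F)} (hU : Quad.IsMax Q U) {g : Cfsg.isometryGroup F ⇑Q} {vs : List (ι → F)}
    (hvs : ∀ v ∈ vs, Q v ≠ 0) (hg : Quad.toOG Q g = Quad.rpr Q vs) :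
    parH hQ hU ⟨SemidirectProduct.inl (g : GL ι F), iso_mem_Gam g.2⟩ = (-1) ^ vs.length := by
  rw [parH_apply]
  change pr U (im (SemidirectProduct.inl (g : GL ι F)) U) = _
  have h1 : im (SemidirectProduct.inl (g : GL ι F)) U = U.map (Quad.rprod Q vs).toLinearMap := by
    rw [im_inl, ← Quad.coe_rpr, ← hg]
    rfl
  have h2 := Quad.parity_rprod hQ hU hU vs hvs
  rw [inf_idem] at h2
  rw [h1, pr]
  apply up_eq
  rw [Nat.even_iff] at h2
  omega

theorem parH_scl [Finite F] {Q : QuadraticForm F (ι → F)} (hQ : (QuadraticMap.polarBilin Q).Nondegenerate)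
    {U : Submodule F (ι → F)} (hU : Quad.IsMax Q U) (c : Fˣ) :
    parH hQ hU ⟨SemidirectProduct.inl (scl ι c), sim_mem_Gam.mpr (scl_sim Q c)⟩ = 1 := by
  rw [parH_apply]
  change pr U (im (SemidirectProduct.inl (scl ι c)) U) = _
  rw [im_scl, pr_self]

/-- maximal totally singular subspaces. -/
theorem isMTS_iff {Q : QuadraticForm F (ι → F)} (hQ : (QuadraticMap.polarBilin Q).Nondegenerate)
    {U₀ : Submodule F (ι → F)} (hU₀ : Quad.IsMax Q U₀) {U : Submodule F (ι → F)} :
    Cfsg.IsMaxTotallySingular ⇑Q U ↔ Quad.IsMax Q U := by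
  constructor
  · rintro ⟨h1, h2⟩
    have h1' : ∀ u ∈ U, Q u = 0 := h1
    have h3 := Quad.ts_finrank_le hQ h1'
    obtain ⟨g, hg, hgU⟩ := Quad.ts_move hQ h1' hU₀.1 (by have := hU₀.2; omega)
    have hg' : g⁻¹ ∈ Quad.OG Q := inv_mem hg
    have h4 : Quad.IsMax Q (U₀.map (g⁻¹ : (ι → F) ≃ₗ[F] (ι → F)).toLinearMap) := hU₀.map hg'
    have h5 : U ≤ U₀.map (g⁻¹ : (ι → F) ≃ₗ[F] (ι → F)).toLinearMap := by
      intro u hu
      refine ⟨g u, hgU ⟨u, hu, rfl⟩, ?_⟩
      exact g.symm_apply_apply u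
    rw [← h2 _ h4.1 h5]
    exact h4
  · intro hU
    refine ⟨hU.1, fun W hW hUW => ?_⟩
    symm
    apply Submodule.eq_of_le_of_finrank_le hUW
    have h3 := Quad.ts_finrank_le hQ (U := W) hW
    have := hU.2
    omega

theorem preserves_iff [Finite F] {Q : QuadraticForm F (ι → F)} (hQ : (QuadraticMap.polarBilin Q).Nondegenerate)
    {U : Submodule F (ι → F)} (hU : Quad.IsMax Q U) {g : GL ι F} (hg : (SemidirectProduct.inl g : Gm ι F) ∈ GamO ⇑Q) :
    Cfsg.PreservesSingularClasses ⇑Q (g : Matrix ι ι F) ↔ parH hQ hU ⟨_, hg⟩ = 1 := by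
  have key : ∀ W : Submodule F (ι → F), Quad.IsMax Q W →
      (Cfsg.SameParityClass W (Cfsg.imageSubmodule (g : Matrix ι ι F) W) ↔ parH hQ hU ⟨_, hg⟩ = 1) := by
    intro W hW
    have h1 := parH_indep hQ hU hW ⟨_, hg⟩
    change pr W (im (SemidirectProduct.inl g) W) = _ at h1
    rw [im_inl] at h1
    rw [← h1, pr, Cfsg.SameParityClass, Cfsg.imageSubmodule]
    have h2 := Submodule.finrank_mono (inf_le_left : W ⊓ W.map (Matrix.toLin' (g : Matrix ι ι F)) ≤ W)
    rcases Nat.even_or_odd (finrank F W + finrank F (W ⊓ W.map (Matrix.toLin' (g : Matrix ι ι F)) : Submodule F (ι → F))) with h | h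
    · rw [h.neg_one_pow]
      refine ⟨fun _ => rfl, fun _ => ?_⟩
      rw [Nat.even_iff] at h ⊢
      omega
    · rw [h.neg_one_pow]
      constructor
      · intro h3
        rw [Nat.even_iff] at h3
        rw [Nat.odd_iff] at h
        omega
      · intro h3
        exact absurd h3 (by decide)
  constructor
  · intro h
    exact (key U hU).mp (h U ((isMTS_iff hQ hU).mpr hU))
  · intro h W hW
    exact (key W ((isMTS_iff hQ hU).mp hW)).mpr h

end Cfsg.Agent.H16.Par
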