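import Cfsg.Agent.H16_Par1

set_option autoImplicit false

/-! Multipliers, orders of automorphism groups. -/

namespace Cfsg.Agent.H16.Gam

open Matrix Cfsg.Agent.H16.AutG Cfsg.Agent.H16.AutL Cfsg.Agent.H16.Desc

namespace Fam

variable {S : Type*} [Group S] {ι : Type} [Fintype ι] [DecidableEq ι] {F : Type*} [Field F] {Φ : Fam S ι F}

theorem Full.surj (hΦ : Φ.Full) : Function.Surjective Φ.T := hΦ

/-- the field part of an automorphism. -/
theorem exists_theta_gen (hΦ : Φ.Full) (hs : ∀ σ : F ≃+* F, ∃ x : Φ.Γ, (x : Gm ι F).right = σ) :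
    ∃ θ : MulAut (S ⧸ Subgroup.center S) →* (F ≃+* F), Function.Surjective θ ∧ θ.ker = Φ.D ∧
      ∀ x : Φ.Γ, θ (Φ.T x) = (x : Gm ι F).right := by
  let ρ : Φ.Γ →* (F ≃+* F) := SemidirectProduct.rightHom.comp Φ.Γ.subtype
  have h0 : Φ.T.ker ≤ ρ.ker := by
    intro x hx
    obtain ⟨c, hc⟩ := (Φ.T_eq_one_iff x).mp hx
    rw [MonoidHom.mem_ker]
    change (x : Gm ι F).right = 1
    rw [hc]
    rfl
  let θ : MulAut (S ⧸ Subgroup.center S) →* (F ≃+* F) := (Φ.T.liftOfSurjective hΦ) ⟨ρ, h0⟩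
  have hθ : ∀ x, θ (Φ.T x) = ρ x := fun x => MonoidHom.liftOfRightInverse_comp_apply _ _ _ ⟨ρ, h0⟩ x
  refine ⟨θ, ?_, ?_, hθ⟩
  · intro σ
    obtain ⟨x, hx⟩ := hs σ
    exact ⟨Φ.T x, (hθ x).trans hx⟩
  · ext α
    rw [MonoidHom.mem_ker]
    obtain ⟨x, rfl⟩ := hΦ α
    rw [hθ]
    change (x : Gm ι F).right = 1 ↔ _
    constructor
    · intro h
      have h1 : (x : Gm ι F) = SemidirectProduct.inl (x : Gm ι F).left := by
        apply SemidirectProduct.ext
        · rfl
        · exact h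
      refine ⟨⟨(x : Gm ι F).left, ?_⟩, ?_⟩
      · rw [mem_N, ← h1]
        exact x.2
      · change Φ.T _ = Φ.T x
        congr 1
        exact Subtype.ext h1.symm
    · rintro ⟨g, hg⟩
      have h1 : Φ.T ((Φ.nin g)⁻¹ * x) = 1 := by
        rw [_root_.map_mul, _root_.map_inv, ← hg]
        exact inv_mul_cancel _
      rw [Φ.T_eq_one_iff] at h1
      obtain ⟨c, hc⟩ := h1
      have h2 := congrArg SemidirectProduct.right hc
      rw [Subgroup.coe_mul, Subgroup.coe_inv, coe_nin] at h2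
      simpa using h2

end Fam

end Cfsg.Agent.H16.Gam

namespace Cfsg.Agent.H16.Par

open Matrix Cfsg.Agent.H16.Ps Module Cfsg.Agent.H16.Gam Cfsg.Agent.H16.AutL Cfsg.Agent.H16.AutG Cfsg.Agent.H16.Desc
open QuadraticMap (polar)
open Cfsg.Agent.H16 Cfsg.Agent.H16.POm

variable {ι : Type} [Fintype ι] [DecidableEq ι] {F : Type*} [Field F] [Finite F]

/-- the square class. -/
noncomputable def sqc (F : Type*) [Field F] [Finite F] : Fˣ →* ℤˣ := by
  classical
  exact
  { toFun := fun c => if IsSquare (c : F) then 1 else -1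
    map_one' := by rw [Units.val_one, if_pos IsSquare.one]
    map_mul' := fun c d => by
      have h := Quad.isSquare_mul_iff c.ne_zero d.ne_zero
      rw [Units.val_mul]
      by_cases h1 : IsSquare (c : F) <;> by_cases h2 : IsSquare (d : F)
      · rw [if_pos h1, if_pos h2, if_pos (h.mpr ⟨fun _ => h2, fun _ => h1⟩)]; rfl
      · rw [if_pos h1, if_neg h2, if_neg (fun h3 => h2 ((h.mp h3).mp h1))]; rfl
      · rw [if_neg h1, if_pos h2, if_neg (fun h3 => h1 ((h.mp h3).mpr h2))]; rfl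
      · rw [if_neg h1, if_neg h2, if_pos (h.mpr ⟨fun h3 => absurd h3 h1, fun h3 => absurd h3 h2⟩)]; rfl }

theorem sqc_eq_one {c : Fˣ} : sqc F c = 1 ↔ IsSquare (c : F) := by
  classical
  change (if IsSquare (c : F) then (1 : ℤˣ) else -1) = 1 ↔ _
  by_cases h : IsSquare (c : F)
  · simp [h]
  · rw [if_neg h]
    constructor
    · intro h1; exact absurd h1 (by decide)
    · intro h1; exact absurd h1 h

theorem sqc_sq (c : Fˣ) : sqc F (c ^ 2) = 1 := by
  rw [sqc_eq_one, Units.val_pow_eq_pow_val]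
  exact ⟨c, sq _⟩

theorem sqc_map (σ : F ≃+* F) (c : Fˣ) : sqc F (Units.map (σ : F →* F) c) = sqc F c := by
  have h1 : IsSquare ((Units.map (σ : F →* F) c : Fˣ) : F) ↔ IsSquare (c : F) := by
    change IsSquare (σ (c : F)) ↔ _
    constructor
    · rintro ⟨d, hd⟩
      refine ⟨σ.symm d, ?_⟩
      rw [← map_mul, ← hd, RingEquiv.symm_apply_apply]
    · rintro ⟨d, hd⟩
      exact ⟨σ d, by rw [hd, map_mul]⟩
  rcases Int.units_eq_one_or (sqc F c) with h | h
  · rw [h, sqc_eq_one, h1, ← sqc_eq_one, h]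
  · rcases Int.units_eq_one_or (sqc F (Units.map (σ : F →* F) c)) with h2 | h2
    · rw [sqc_eq_one, h1, ← sqc_eq_one, h] at h2
      exact absurd h2 (by decide)
    · rw [h2, h]

theorem sqc_surj (h2 : (2 : F) ≠ 0) : ∃ c : Fˣ, sqc F c = -1 := by
  obtain ⟨a, ha, ha2⟩ := Quad.exists_nonsquare' h2
  refine ⟨Units.mk0 a ha, ?_⟩
  rcases Int.units_eq_one_or (sqc F (Units.mk0 a ha)) with h | h
  · exact absurd (sqc_eq_one.mp h) ha2
  · exact h

section

variable (A : OD ι F)

/-- the multiplier. -/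
noncomputable def cc (x : GamO ⇑A.Q) : Fˣ := x.2.choose

theorem cc_spec (x : GamO ⇑A.Q) (v : ι → F) : A.Q (sl (x : Gm ι F) v) = (cc A x : F) * (x : Gm ι F).right (A.Q v) :=
  x.2.choose_spec v

theorem cc_eq {x : GamO ⇑A.Q} {c : Fˣ} (h : ∀ v, A.Q (sl (x : Gm ι F) v) = (c : F) * (x : Gm ι F).right (A.Q v)) :
    cc A x = c := by
  obtain ⟨v, hv⟩ := exists_ns A
  have h1 := cc_spec A x v
  rw [h v] at h1
  have h2 : (x : Gm ι F).right (A.Q v) ≠ 0 := by rw [Ne, map_eq_zero]; exact hv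
  exact Units.ext (mul_right_cancel₀ h2 h1).symm

theorem cc_mul (x y : GamO ⇑A.Q) : cc A (x * y) = cc A x * Units.map ((x : Gm ι F).right : F →* F) (cc A y) := by
  apply cc_eq
  intro v
  rw [Subgroup.coe_mul, sl_mul, cc_spec, cc_spec, _root_.map_mul, SemidirectProduct.mul_right, Units.val_mul, mul_assoc]
  rfl

/-- the square class of the multiplier. -/
noncomputable def msq : GamO ⇑A.Q →* ℤˣ where
  toFun x := sqc F (cc A x)
  map_one' := by
    have h1 : cc A 1 = 1 := by
      apply cc_eq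
      intro v
      rw [Subgroup.coe_one, sl_one, Units.val_one, one_mul]
      rfl
    rw [h1, _root_.map_one]
  map_mul' x y := by rw [cc_mul, _root_.map_mul, sqc_map]

theorem msq_apply (x : GamO ⇑A.Q) : msq A x = sqc F (cc A x) := rfl

/-- the multiplier of similarities. -/
noncomputable def muN : (fam A).N →* Fˣ where
  toFun g := cc A ((fam A).nin g)
  map_one' := by
    apply cc_eq
    intro v
    rw [_root_.map_one, Subgroup.coe_one, sl_one, Units.val_one, one_mul]
    rfl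
  map_mul' g h := (congrArg (cc A) (_root_.map_mul (fam A).nin g h)).trans ((cc_mul A _ _).trans (by
    congr 1))

theorem muN_spec (g : (fam A).N) (v : ι → F) : A.Q (((g : GL ι F) : Matrix ι ι F) *ᵥ v) = (muN A g : F) * A.Q v :=
  cc_spec A ((fam A).nin g) v

theorem muN_eq {g : (fam A).N} {c : Fˣ} (h : ∀ v, A.Q (((g : GL ι F) : Matrix ι ι F) *ᵥ v) = (c : F) * A.Q v) :
    muN A g = c := cc_eq A h

theorem muN_scl (c : Fˣ) : muN A ⟨scl ι c, (fam A).sc c⟩ = c ^ 2 := by
  apply muN_eq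
  intro v
  change A.Q (((scl ι c : GL ι F) : Matrix ι ι F) *ᵥ v) = _
  rw [PSp.scl_mulVec, Quad.map_smul, Units.val_pow_eq_pow_val, sq]

theorem muN_ker (g : (fam A).N) : muN A g = 1 ↔ (g : GL ι F) ∈ Cfsg.isometryGroup F ⇑A.Q := by
  rw [Quad.mem_isometryGroup]
  constructor
  · intro h v
    have := muN_spec A g v
    rwa [h, Units.val_one, one_mul] at this
  · intro h
    apply muN_eq
    intro v
    rw [Units.val_one, one_mul]
    exact h v

/-- the order of `D` when every scalar is a multiplier. -/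
theorem card_D_even (hs : ∀ c : Fˣ, ∃ g : (fam A).N, muN A g = c) :
    Nat.card (fam A).D = Nat.card (Cfsg.isometryGroup F ⇑A.Q) := by
  have hnt := nonempty A
  have h1 : Nat.card (muN A).ker = Nat.card (Cfsg.isometryGroup F ⇑A.Q) := by
    refine Nat.card_congr (Equiv.ofBijective (fun g : (muN A).ker => (⟨((g : (fam A).N) : GL ι F), (muN_ker A _).mp g.2⟩ :
      Cfsg.isometryGroup F ⇑A.Q)) ⟨?_, ?_⟩)
    · intro g h hgh
      exact Subtype.ext (Subtype.ext (congrArg (fun z : Cfsg.isometryGroup F ⇑A.Q => (z : GL ι F)) hgh))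
    · rintro ⟨g, hg⟩
      exact ⟨⟨⟨g, iso_le_N A hg⟩, (muN_ker A _).mpr hg⟩, rfl⟩
  have h2 : Nat.card ((fam A).T.comp (fam A).nin).ker = Nat.card Fˣ := by
    symm
    refine Nat.card_congr (Equiv.ofBijective (fun c : Fˣ => (⟨⟨scl ι c, (fam A).sc c⟩, (Fam.ker_nin _).mpr ⟨c, rfl⟩⟩ :
      ((fam A).T.comp (fam A).nin).ker)) ⟨?_, ?_⟩)
    · intro c d h
      exact sc_inj (congrArg (fun z : ((fam A).T.comp (fam A).nin).ker => ((z : (fam A).N) : GL ι F)) h)
    · rintro ⟨g, hg⟩
      obtain ⟨c, hc⟩ := (Fam.ker_nin _).mp hg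
      exact ⟨c, Subtype.ext (Subtype.ext hc.symm)⟩
  have h3 : Nat.card (muN A).ker * Nat.card (muN A).range = Nat.card (fam A).N := by
    rw [← Subgroup.index_ker, Subgroup.card_mul_index]
  have h4 : Nat.card ((fam A).T.comp (fam A).nin).ker * Nat.card ((fam A).T.comp (fam A).nin).range = Nat.card (fam A).N := by
    rw [← Subgroup.index_ker, Subgroup.card_mul_index]
  have h5 : (muN A).range = ⊤ := MonoidHom.range_eq_top.mpr hs
  rw [h5, Subgroup.card_top, h1] at h3
  rw [h2] at h4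
  have h6 : 0 < Nat.card Fˣ := Nat.card_pos
  have h7 : Nat.card Fˣ * Nat.card ((fam A).T.comp (fam A).nin).range =
      Nat.card Fˣ * Nat.card (Cfsg.isometryGroup F ⇑A.Q) := by
    rw [h4, ← h3, mul_comm]
  exact Nat.eq_of_mul_eq_mul_left h6 h7

open Classical in
/-- the order of the centre. -/
theorem card_center : Nat.card (Subgroup.center (Cfsg.Omega F ⇑A.Q)) =
    if (2 : F) ≠ 0 ∧ negO A ∈ Cfsg.Omega F ⇑A.Q then 2 else 1 := by
  have hnt := nonempty A
  have hmem : ∀ s : Cfsg.Omega F ⇑A.Q, s ∈ Subgroup.center (Cfsg.Omega F ⇑A.Q) ↔ s = 1 ∨ s.1 = negO A := by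
    intro s
    rw [(fam A).cen]
    constructor
    · rintro ⟨c, hc⟩
      have h1 : ((s : Cfsg.isometryGroup F ⇑A.Q) : GL ι F) = scl ι c := hc
      have h2 : scl ι c ∈ Cfsg.isometryGroup F ⇑A.Q := by rw [← h1]; exact s.1.2
      rcases (scl_iso A).mp h2 with rfl | rfl
      · left
        apply Subtype.ext
        apply Subtype.ext
        rw [h1, _root_.map_one]
        rfl
      · right
        exact Subtype.ext h1
    · rintro (h | h)
      · exact ⟨1, by rw [h, _root_.map_one, _root_.map_one]⟩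
      · exact ⟨-1, congrArg Subtype.val h⟩
  split_ifs with h
  · have h1 : (⟨negO A, h.2⟩ : Cfsg.Omega F ⇑A.Q) ≠ 1 := by
      intro h3
      have h4 : scl ι (-1 : Fˣ) = scl ι 1 := by
        rw [_root_.map_one]
        exact congrArg (fun z : Cfsg.Omega F ⇑A.Q => ((z : Cfsg.isometryGroup F ⇑A.Q) : GL ι F)) h3
      have h5 := congrArg Units.val (sc_inj h4)
      rw [Units.val_neg, Units.val_one] at h5
      apply h.1
      linear_combination -h5
    have h2 : (Subgroup.center (Cfsg.Omega F ⇑A.Q) : Set (Cfsg.Omega F ⇑A.Q)) = {1, ⟨negO A, h.2⟩} := by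
      ext s
      rw [SetLike.mem_coe, hmem]
      constructor
      · rintro (h | h)
        · exact Or.inl h
        · exact Or.inr (Subtype.ext h)
      · rintro (h | h)
        · exact Or.inl h
        · right
          rw [h]
    have h3 : Nat.card (Subgroup.center (Cfsg.Omega F ⇑A.Q)) = (Subgroup.center (Cfsg.Omega F ⇑A.Q) : Set (Cfsg.Omega F ⇑A.Q)).ncard := rfl
    rw [h3, h2, Set.ncard_pair h1.symm]
  · have h2 : Subgroup.center (Cfsg.Omega F ⇑A.Q) = ⊥ := by
      rw [eq_bot_iff]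
      intro s hs
      rcases (hmem s).mp hs with h3 | h3
      · exact h3
      · rw [not_and] at h
        by_cases h2 : (2 : F) = 0
        · have h4 : (-1 : Fˣ) = 1 := Units.ext (by rw [Units.val_neg, Units.val_one]; linear_combination -h2)
          apply Subtype.ext
          rw [h3]
          apply Subtype.ext
          change scl ι (-1) = 1
          rw [h4, _root_.map_one]
        · exact absurd (h3 ▸ s.2) (h h2)
    rw [h2, Subgroup.card_bot]

theorem card_Omega : Nat.card (Cfsg.Omega F ⇑A.Q) =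
    Nat.card (Cfsg.POmega F ⇑A.Q) * Nat.card (Subgroup.center (Cfsg.Omega F ⇑A.Q)) :=
  Subgroup.card_eq_card_quotient_mul_card_subgroup _

end

end Cfsg.Agent.H16.Par
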