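import Cfsg.Agent.H16_Par2
import Cfsg.Agent.H16_NegOne

set_option autoImplicit false

/-! Minus type: orders. -/

namespace Cfsg.Agent.H16.Par

open Matrix Cfsg.Agent.H16.Ps Module Cfsg.Agent.H16.Gam Cfsg.Agent.H16.AutL Cfsg.Agent.H16.AutG Cfsg.Agent.H16.Desc
open QuadraticMap (polar)
open Cfsg.Agent.H16 Cfsg.Agent.H16.POm

theorem rat_minus {F K : Type*} [Field F] [Field K] (e : K →+* F) {m : ℕ} (a b : K) (x : (Fin m ⊕ Fin m) ⊕ Fin 2 → K) :
    Quad.minusQ F m (e a) (e b) (fun i => e (x i)) = e (Quad.minusQ K m a b x) := by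
  rw [Quad.minusQ_apply, Quad.minusQ_apply]
  simp only [Cfsg.quadFormMinus, map_add, map_pow, map_sum, map_mul]

theorem rat_plus {F K : Type*} [Field F] [Field K] (e : K →+* F) {m : ℕ} (x : Fin m ⊕ Fin m → K) :
    Quad.plusQ F m (fun i => e (x i)) = e (Quad.plusQ K m x) := by
  rw [Quad.plusQ_apply, Quad.plusQ_apply]
  simp only [Cfsg.quadFormPlus, map_sum, map_mul]

theorem hab_map {F : Type*} [Field F] {a b : F} (σ : F ≃+* F)
    (hab : ∀ z₁ z₂ : F, z₁ ^ 2 + a * z₁ * z₂ + b * z₂ ^ 2 = 0 → z₁ = 0 ∧ z₂ = 0) :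
    ∀ z₁ z₂ : F, z₁ ^ 2 + σ a * z₁ * z₂ + σ b * z₂ ^ 2 = 0 → z₁ = 0 ∧ z₂ = 0 := by
  intro z₁ z₂ h
  have h1 := hab (σ.symm z₁) (σ.symm z₂) (by
    apply σ.injective
    rw [map_zero, ← h]
    simp only [map_add, map_mul, map_pow, RingEquiv.apply_symm_apply])
  have h2 := congrArg σ h1.1
  have h3 := congrArg σ h1.2
  rw [RingEquiv.apply_symm_apply, map_zero] at h2 h3
  exact ⟨h2, h3⟩

theorem glE_symm {F : Type*} [Field F] {κ : Type} [Fintype κ] [DecidableEq κ] (φ : (κ → F) ≃ₗ[F] (κ → F)) (x : κ → F) :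
    (((Quad.glE F κ).symm φ : GL κ F) : Matrix κ κ F) *ᵥ x = φ x := by
  have := Quad.glE_apply ((Quad.glE F κ).symm φ) x
  rw [← this, MulEquiv.apply_symm_apply]

section Minus

variable {F : Type*} [Field F] [Finite F] {m : ℕ} {a b : F}
  (hab : ∀ z₁ z₂ : F, z₁ ^ 2 + a * z₁ * z₂ + b * z₂ ^ 2 = 0 → z₁ = 0 ∧ z₂ = 0) (hm : 3 ≤ m)

theorem semi_minus (σ : F ≃+* F) : ∃ x : (fam (odM hab hm)).Γ, (x : Gm ((Fin m ⊕ Fin m) ⊕ Fin 2) F).right = σ := by
  have hab' := hab_map σ hab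
  obtain ⟨φ, hφ⟩ := Quad.IsMinus.isom (Quad.nd_minusQ m hab') (Quad.nd_minusQ m hab)
    (Quad.minusQ_isMinus m hab') (Quad.minusQ_isMinus m hab)
  refine ⟨⟨⟨(Quad.glE F _).symm φ, σ⟩, 1, fun v => ?_⟩, rfl⟩
  change Quad.minusQ F m a b (((((Quad.glE F _).symm φ : GL ((Fin m ⊕ Fin m) ⊕ Fin 2) F)) :
    Matrix ((Fin m ⊕ Fin m) ⊕ Fin 2) ((Fin m ⊕ Fin m) ⊕ Fin 2) F) *ᵥ _) = _
  rw [glE_symm, hφ, Units.val_one, one_mul]
  exact rat_minus (σ : F →+* F) a b v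

theorem mult_of_even {ι : Type} [Fintype ι] [DecidableEq ι] (A : OD ι F) {n : ℕ} (hn : Fintype.card ι = 2 * n + 2) (c : Fˣ) :
    ∃ g : (fam A).N, muN A g = c := by
  obtain ⟨φ, hφ⟩ := Quad.exists_similarity A.nd (m := n) (by
    rw [Module.finrank_fintype_fun_eq_card]; exact hn) c.ne_zero
  have h1 : (Quad.glE F ι).symm φ ∈ Cfsg.Geo.quadSimilarityGroup (F := F) ⇑A.Q :=
    ⟨c, fun v => by rw [glE_symm]; exact hφ v⟩
  refine ⟨⟨(Quad.glE F ι).symm φ, sim_mem_Gam.mpr h1⟩, muN_eq A fun v => ?_⟩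
  change A.Q ((((Quad.glE F ι).symm φ : GL ι F) : Matrix ι ι F) *ᵥ v) = _
  rw [glE_symm, hφ]

/-- `-1 ∈ Ω`. -/
theorem neg_mem_iff {ι : Type} [Fintype ι] [DecidableEq ι] (A : OD ι F) (h2 : (2 : F) ≠ 0) (he : Even (Fintype.card ι)) :
    negO A ∈ Cfsg.Omega F ⇑A.Q ↔ IsSquare (Quad.gram A.Q (Pi.basisFun F ι)).det := by
  rw [← Quad.neg_one_mem_iff A.nd h2 he]
  have h1 : (((negO A : Cfsg.isometryGroup F ⇑A.Q) : GL ι F) : Matrix ι ι F) = -1 := by
    change (Matrix.scalar ι (((-1 : Fˣ)) : F)) = _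
    rw [Matrix.scalar_apply, Units.val_neg, Units.val_one]
    ext i j
    by_cases h : i = j
    · subst h; simp
    · simp [h]
  constructor
  · intro h
    exact ⟨_, h, h1⟩
  · rintro ⟨g, hg, h3⟩
    have : g = negO A := Subtype.ext (Units.ext (h3.trans h1.symm))
    rw [← this]
    exact hg

theorem minus_card (m : ℕ) : Fintype.card ((Fin m ⊕ Fin m) ⊕ Fin 2) = 2 * m + 2 := by
  simp only [Fintype.card_sum, Fintype.card_fin]; ring

theorem neg_minus (h2 : (2 : F) ≠ 0) : negO (odM hab hm) ∈ Cfsg.Omega F ⇑(odM hab hm).Q ↔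
    ¬ IsSquare ((-1 : F) ^ (m + 1)) := by
  have := Fintype.ofFinite F
  rw [neg_mem_iff (odM hab hm) h2 (by rw [minus_card]; exact ⟨m + 1, by ring⟩)]
  have h3 := Quad.IsMinus.disc h2 (odM hab hm).nd (Quad.minusQ_isMinus m hab)
    (Pi.basisFun F ((Fin m ⊕ Fin m) ⊕ Fin 2))
  have h4 := Quad.det_gram_ne_zero (odM hab hm).nd (Pi.basisFun F ((Fin m ⊕ Fin m) ⊕ Fin 2))
  change ¬ IsSquare ((-1) ^ (m + 1) * (Quad.gram (odM hab hm).Q (Pi.basisFun F ((Fin m ⊕ Fin m) ⊕ Fin 2))).det) at h3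
  rw [Quad.isSquare_mul_iff (pow_ne_zero _ (neg_ne_zero.mpr one_ne_zero)) h4] at h3
  tauto

theorem ne_four_or {ι : Type} [Fintype ι] [DecidableEq ι] (A : OD ι F) : Nat.card F ≠ 2 ∨ finrank F (ι → F) ≠ 4 := by
  right
  have := A.h7
  rw [Module.finrank_fintype_fun_eq_card]
  omega

theorem card_iso_even {ι : Type} [Fintype ι] [DecidableEq ι] (A : OD ι F) (h2 : (2 : F) = 0) :
    Nat.card (Cfsg.isometryGroup F ⇑A.Q) = 2 * Nat.card (Cfsg.POmega F ⇑A.Q) := by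
  have h7 := A.h7
  have h1 := Quad.Omega_index_two A.nd h2 (by rw [Module.finrank_fintype_fun_eq_card]; omega) (ne_four_or A)
  have h3 := Subgroup.card_mul_index (Cfsg.Omega F ⇑A.Q)
  rw [h1, card_Omega, card_center, if_neg (by intro h; exact h.1 h2), mul_one] at h3
  rw [← h3, mul_comm]

open Classical in
theorem card_iso_odd {ι : Type} [Fintype ι] [DecidableEq ι] (A : OD ι F) (h2 : (2 : F) ≠ 0) :
    Nat.card (Cfsg.isometryGroup F ⇑A.Q) = (if negO A ∈ Cfsg.Omega F ⇑A.Q then 8 else 4) * Nat.card (Cfsg.POmega F ⇑A.Q) := by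
  have h7 := A.h7
  have h1 := Quad.Omega_index_odd A.nd h2 (by rw [Module.finrank_fintype_fun_eq_card]; omega)
  have h3 := Subgroup.card_mul_index (Cfsg.Omega F ⇑A.Q)
  rw [h1, card_Omega, card_center] at h3
  rw [← h3]
  by_cases h : negO A ∈ Cfsg.Omega F ⇑A.Q
  · rw [if_pos ⟨h2, h⟩, if_pos h]; ring
  · rw [if_neg (fun h' => h h'.2), if_neg h]; ring

theorem two_iff_char {p f : ℕ} [Fact p.Prime] [Fintype F] (hf : 1 ≤ f) (hF : Fintype.card F = p ^ f) : (2 : F) = 0 ↔ p = 2 := by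
  have hp : p.Prime := Fact.out
  constructor
  · intro h2
    by_contra hne
    exact Quad.two_ne_zero_of_odd_card hF ((hp.odd_of_ne_two hne).pow) h2
  · rintro rfl
    by_contra h2
    have h3 := Quad.card_mod_two h2
    rw [hF, Nat.pow_mod] at h3
    norm_num [Nat.zero_pow hf] at h3

theorem card_aut_minus [Fintype F] {q : ((Fin m ⊕ Fin m) ⊕ Fin 2 → F) → F} (hq : ⇑(odM hab hm).Q = q)
    {p f : ℕ} [Fact p.Prime] (hf : 1 ≤ f) (hF : Fintype.card F = p ^ f) :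
    Nat.card (MulAut (Cfsg.POmega F q)) = (if p = 2 then 2 else (if Even ((m + 1) * (p ^ f - 1) / 2) then 4 else 8)) * f *
      Nat.card (Cfsg.POmega F q) := by
  classical
  subst hq
  have hcf : Nat.card (F ≃+* F) = f := Cfsg.Agent.H16.FAut.card_ringAut (p := p)
    (by rw [Nat.card_eq_fintype_card, hF]) hf
  obtain ⟨θ, h1, h3, -⟩ := Fam.exists_theta_gen (full (good_minus (F := F) hab hm)) (semi_minus hab hm)
  have hfin := aut_finite (odM hab hm)
  refine (card_of_theta θ h1).trans ?_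
  rw [h3, hcf, card_D_even (odM hab hm) (mult_of_even (odM hab hm) (minus_card m))]
  by_cases hp : p = 2
  · rw [if_pos hp, card_iso_even _ ((two_iff_char hf hF).mpr hp)]
    ring
  · have h2 : (2 : F) ≠ 0 := fun h => hp ((two_iff_char hf hF).mp h)
    have hq : Odd (p ^ f) := ((Fact.out : p.Prime).odd_of_ne_two hp).pow
    have h5 := Quad.isSquare_neg_one_pow_iff (F := F) (q := p ^ f) hF hq (m + 1)
    rw [if_neg hp, card_iso_odd _ h2]
    have h6 : (if negO (odM hab hm) ∈ Cfsg.Omega F ⇑(odM hab hm).Q then 8 else 4) =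
        (if Even ((m + 1) * (p ^ f - 1) / 2) then 4 else 8) := by
      by_cases h : Even ((m + 1) * (p ^ f - 1) / 2)
      · rw [if_pos h, if_neg]
        rw [neg_minus hab hm h2, not_not, h5]
        exact h
      · rw [if_neg h, if_pos]
        rw [neg_minus hab hm h2, h5]
        exact h
    rw [h6]
    ring

end Minus

end Cfsg.Agent.H16.Par
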