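import Cfsg.Agent.H16_Par3

set_option autoImplicit false

/-! Quadratic extensions. -/

namespace Cfsg.Agent.H16.Par

open Module Polynomial

theorem ext_gen {F K L : Type*} [Field F] [Finite F] [Field K] [Finite K] [Field L] [Finite L] (e : F →+* K) (e' : F →+* L)
    (h : Nat.card K = Nat.card L) : ∃ ρ : K ≃+* L, ∀ y, ρ (e y) = e' y := by
  let A1 : Algebra F K := e.toAlgebra
  let A2 : Algebra F L := e'.toAlgebra
  have h1 : finrank F K = finrank F L := by
    have e1 : Nat.card K = Nat.card F ^ finrank F K := Module.natCard_eq_pow_finrank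
    have e2 : Nat.card L = Nat.card F ^ finrank F L := Module.natCard_eq_pow_finrank
    exact Nat.pow_right_injective (show 2 ≤ Nat.card F from Finite.one_lt_card) (e1.symm.trans (h.trans e2))
  obtain ⟨ρ⟩ := FiniteField.nonempty_algHom_of_finrank_dvd (F := F) (K := K) (L := L) (by rw [h1])
  have hinj : Function.Injective ρ := ρ.toRingHom.injective
  have hbij : Function.Bijective ρ := (Nat.bijective_iff_injective_and_card ρ).mpr ⟨hinj, h⟩
  exact ⟨RingEquiv.ofBijective (ρ : K →+* L) hbij, fun y => ρ.commutes' y⟩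

theorem ext_sigma {F K : Type*} [Field F] [Finite F] [Field K] [Finite K] (e : F →+* K) (σ : F ≃+* F) :
    ∃ ρ : K ≃+* K, ∀ y, ρ (e y) = e (σ y) := ext_gen e (e.comp (σ : F →+* F)) rfl

/-- quadratic extension data. -/
structure QX (F : Type*) [Field F] (a b : F) (K : Type*) [Field K] where
  e : F →+* K
  τ : K ≃+* K
  ω : K
  hτ : ∀ x, τ (e x) = e x
  hω : ω ^ 2 + e a * ω + e b = 0
  hne : τ ω ≠ ω
  span : ∀ z : K, ∃ x y : F, z = e x + e y * ω

theorem irred {F : Type*} [Field F] {a b : F}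
    (hab : ∀ z₁ z₂ : F, z₁ ^ 2 + a * z₁ * z₂ + b * z₂ ^ 2 = 0 → z₁ = 0 ∧ z₂ = 0) :
    Irreducible (X ^ 2 + C a * X + C b : F[X]) := by
  have hd : (X ^ 2 + C a * X + C b : F[X]).natDegree = 2 := by compute_degree!
  rw [Polynomial.irreducible_iff_roots_eq_zero_of_degree_le_three (by rw [hd]) (by rw [hd]; norm_num)]
  rw [Multiset.eq_zero_iff_forall_notMem]
  intro z hz
  have h1 := (Polynomial.mem_roots'.mp hz).2
  rw [Polynomial.IsRoot.def] at h1
  simp only [eval_add, eval_pow, eval_X, eval_mul, eval_C] at h1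
  have h2 := hab z 1 (by linear_combination h1)
  exact one_ne_zero h2.2

/-- quadratic extensions exist. -/
theorem exists_K.{u} {F : Type u} [Field F] {a b : F}
    (hab : ∀ z₁ z₂ : F, z₁ ^ 2 + a * z₁ * z₂ + b * z₂ ^ 2 = 0 → z₁ = 0 ∧ z₂ = 0) :
    ∃ (K : Type u) (_ : Field K) (_ : Algebra F K), Module.finrank F K = 2 := by
  have hd : (X ^ 2 + C a * X + C b : F[X]).natDegree = 2 := by compute_degree!
  have : Fact (Irreducible (X ^ 2 + C a * X + C b : F[X])) := ⟨irred hab⟩
  refine ⟨AdjoinRoot (X ^ 2 + C a * X + C b : F[X]), inferInstance, inferInstance, ?_⟩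
  have := finrank_quotient_span_eq_natDegree (f := (X ^ 2 + C a * X + C b : F[X]))
  rw [hd] at this
  exact this

theorem exists_QX {F : Type*} [Field F] [Finite F] {a b : F}
    (hab : ∀ z₁ z₂ : F, z₁ ^ 2 + a * z₁ * z₂ + b * z₂ ^ 2 = 0 → z₁ = 0 ∧ z₂ = 0)
    (K : Type*) [Field K] [Algebra F K] (hK : finrank F K = 2) :
    ∃ X : QX F a b K, X.e = algebraMap F K := by
  have hfd : Module.Finite F K := Module.finite_of_finrank_pos (by omega)
  have hfin : Finite K := Module.finite_of_finite F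
  have hd : (X ^ 2 + C a * X + C b : F[X]).natDegree = 2 := by compute_degree!
  have hirr : Fact (Irreducible (X ^ 2 + C a * X + C b : F[X])) := ⟨irred hab⟩
  let L := AdjoinRoot (X ^ 2 + C a * X + C b : F[X])
  have hL : finrank F L = 2 := by
    have := finrank_quotient_span_eq_natDegree (f := (X ^ 2 + C a * X + C b : F[X]))
    rw [hd] at this
    exact this
  obtain ⟨ψ⟩ := FiniteField.nonempty_algHom_of_finrank_dvd (F := F) (K := L) (L := K) (by rw [hL, hK])
  set r : L := AdjoinRoot.root _ with hr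
  have hr2 : r ^ 2 + algebraMap F L a * r + algebraMap F L b = 0 := by
    have := AdjoinRoot.eval₂_root (X ^ 2 + C a * X + C b : F[X])
    simp only [eval₂_add, eval₂_pow, eval₂_X, eval₂_mul, eval₂_C] at this
    exact this
  set ω : K := ψ r with hω
  have hω2 : ω ^ 2 + algebraMap F K a * ω + algebraMap F K b = 0 := by
    have := congrArg ψ hr2
    simp only [map_add, map_mul, map_pow, AlgHom.commutes, map_zero] at this
    exact this
  have hωF : ∀ x : F, algebraMap F K x ≠ ω := by
    intro x hx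
    have h1 : (algebraMap F K) (x ^ 2 + a * x * 1 + b * 1 ^ 2) = 0 := by
      rw [map_add, map_add, map_mul, map_mul, map_mul, map_pow, map_pow, map_one, hx]
      linear_combination hω2
    have h2 := hab x 1 ((map_eq_zero _).mp h1)
    exact one_ne_zero h2.2
  have hli : LinearIndependent F ![(1 : K), ω] := by
    rw [LinearIndependent.pair_iff]
    intro s t hst
    by_cases ht : t = 0
    · subst ht
      rw [zero_smul, add_zero, Algebra.smul_def, mul_one] at hst
      exact ⟨(map_eq_zero _).mp hst, rfl⟩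
    · exfalso
      apply hωF (-s / t)
      rw [Algebra.smul_def, Algebra.smul_def, mul_one] at hst
      rw [map_div₀, map_neg]
      have ht' : algebraMap F K t ≠ 0 := by rw [Ne, map_eq_zero]; exact ht
      field_simp
      linear_combination -hst
  have hspan : ∀ z : K, ∃ x y : F, z = algebraMap F K x + algebraMap F K y * ω := by
    intro z
    have h1 := hli.span_eq_top_of_card_eq_finrank' (by simp [hK])
    have h2 : z ∈ Submodule.span F (Set.range ![(1 : K), ω]) := by rw [h1]; exact Submodule.mem_top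
    rw [Matrix.range_cons, Matrix.range_cons, Matrix.range_empty, Set.union_empty, Set.singleton_union,
      Submodule.mem_span_pair] at h2
    obtain ⟨x, y, h3⟩ := h2
    exact ⟨x, y, by rw [← h3, Algebra.smul_def, Algebra.smul_def, mul_one]⟩
  have hcard : Nat.card (K ≃ₐ[F] K) = 2 := by rw [IsGalois.card_aut_eq_finrank, hK]
  obtain ⟨τ, hτ⟩ : ∃ τ : K ≃ₐ[F] K, τ ≠ 1 := by
    by_contra h
    push Not at h
    have : Subsingleton (K ≃ₐ[F] K) := ⟨fun x y => by rw [h x, h y]⟩
    have := Nat.card_of_subsingleton (1 : K ≃ₐ[F] K)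
    omega
  refine ⟨⟨algebraMap F K, τ.toRingEquiv, ω, fun x => τ.commutes x, hω2, fun h => hτ ?_, hspan⟩, rfl⟩
  ext z
  obtain ⟨x, y, rfl⟩ := hspan z
  change τ ω = ω at h
  rw [map_add, map_mul, AlgEquiv.commutes, AlgEquiv.commutes, h]
  rfl

section

variable {F : Type*} [Field F] {a b : F} {K : Type*} [Field K] (X : QX F a b K)

namespace QX

/-- uniqueness of extensions. -/
theorem unique {ρ₁ ρ₂ : K ≃+* K} (h : ∀ y, ρ₁ (X.e y) = ρ₂ (X.e y)) : ρ₂ = ρ₁ ∨ ρ₂ = ρ₁ * X.τ := by
  have h1 : ρ₁.symm (ρ₂ X.ω) = X.ω ∨ ρ₁.symm (ρ₂ X.ω) = X.τ X.ω := by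
    have e1 : (ρ₁.symm (ρ₂ X.ω)) ^ 2 + X.e a * (ρ₁.symm (ρ₂ X.ω)) + X.e b = 0 := by
      have := congrArg (fun z => ρ₁.symm (ρ₂ z)) X.hω
      simp only [map_add, map_mul, map_pow, map_zero, ← h, RingEquiv.symm_apply_apply] at this
      exact this
    have e2 : (X.τ X.ω) ^ 2 + X.e a * (X.τ X.ω) + X.e b = 0 := by
      have := congrArg X.τ X.hω
      simp only [map_add, map_mul, map_pow, map_zero, X.hτ] at this
      exact this
    have e3 : X.τ X.ω + X.ω = - X.e a := by
      have h4 : (X.τ X.ω - X.ω) * (X.τ X.ω + X.ω + X.e a) = 0 := by linear_combination e2 - X.hω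
      rcases mul_eq_zero.mp h4 with h5 | h5
      · exact absurd (sub_eq_zero.mp h5) X.hne
      · linear_combination h5
    have e4 : X.τ X.ω * X.ω = X.e b := by linear_combination X.ω * e3 - X.hω
    have e5 : (ρ₁.symm (ρ₂ X.ω) - X.ω) * (ρ₁.symm (ρ₂ X.ω) - X.τ X.ω) = 0 := by
      linear_combination e1 - (ρ₁.symm (ρ₂ X.ω)) * e3 + e4
    rcases mul_eq_zero.mp e5 with h6 | h6
    · exact Or.inl (sub_eq_zero.mp h6)
    · exact Or.inr (sub_eq_zero.mp h6)
  rcases h1 with h2 | h2
  · left
    ext z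
    obtain ⟨x, y, rfl⟩ := X.span z
    have h3 : ρ₂ X.ω = ρ₁ X.ω := by
      have := congrArg ρ₁ h2
      rwa [RingEquiv.apply_symm_apply] at this
    rw [map_add, map_mul, map_add, map_mul, h3, h, h]
  · right
    ext z
    obtain ⟨x, y, rfl⟩ := X.span z
    have h3 : ρ₂ X.ω = ρ₁ (X.τ X.ω) := by
      have := congrArg ρ₁ h2
      rwa [RingEquiv.apply_symm_apply] at this
    rw [map_add, map_mul, h3, RingAut.mul_apply, map_add, map_mul, map_add, map_mul, X.hτ, X.hτ, h, h]

end QX

end

end Cfsg.Agent.H16.Par
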