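import Cfsg.Agent.H16_Par4

set_option autoImplicit false

/-! Minus type: passing to the quadratic extension. -/

namespace Cfsg.Agent.H16.Par

open Matrix Cfsg.Agent.H16.Ps Module Cfsg.Agent.H16.Gam Cfsg.Agent.H16.AutL Cfsg.Agent.H16.AutG Cfsg.Agent.H16.Desc
open QuadraticMap (polar)
open Cfsg.Agent.H16 Cfsg.Agent.H16.POm

theorem nd_minusQ' {K : Type*} [Field K] (m : ℕ) {a b : K} (hd : 4 * b - a ^ 2 ≠ 0) :
    (QuadraticMap.polarBilin (Quad.minusQ K m a b)).Nondegenerate := by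
  apply Quad.nd_of
  intro x hx
  have h0 := hx (Pi.single (Sum.inr 0) 1)
  have h1 := hx (Pi.single (Sum.inr 1) 1)
  rw [Quad.polar_minusQ] at h0 h1
  simp at h0 h1
  have e0 : x (Sum.inr 0) = 0 := by
    have : (4 * b - a ^ 2) * x (Sum.inr 0) = 0 := by linear_combination 2 * b * h0 - a * h1
    exact (mul_eq_zero.1 this).resolve_left hd
  have e1 : x (Sum.inr 1) = 0 := by
    have : (4 * b - a ^ 2) * x (Sum.inr 1) = 0 := by linear_combination 2 * h1 - a * h0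
    exact (mul_eq_zero.1 this).resolve_left hd
  funext i
  rcases i with (i | i) | i
  · have := hx (Pi.single (Sum.inl (Sum.inr i)) 1)
    rw [Quad.polar_minusQ] at this
    simpa [Pi.single_apply] using this
  · have := hx (Pi.single (Sum.inl (Sum.inl i)) 1)
    rw [Quad.polar_minusQ] at this
    simpa [Pi.single_apply] using this
  · fin_cases i
    · exact e0
    · exact e1

section UK

variable {K : Type*} [Field K]

/-- the linear map defining a maximal totally singular subspace. -/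
def LU (m : ℕ) (ω : K) : ((Fin m ⊕ Fin m) ⊕ Fin 2 → K) →ₗ[K] (Fin m → K) × K where
  toFun v := (fun i => v (Sum.inl (Sum.inr i)), v (Sum.inr 0) - ω * v (Sum.inr 1))
  map_add' v w := by
    ext
    · rfl
    · simp only [Pi.add_apply, Prod.snd_add]; ring
  map_smul' c v := by
    ext
    · rfl
    · simp only [Pi.smul_apply, smul_eq_mul, Prod.smul_snd, RingHom.id_apply]; ring

/-- a maximal totally singular subspace. -/
def UK (m : ℕ) (ω : K) : Submodule K ((Fin m ⊕ Fin m) ⊕ Fin 2 → K) := LinearMap.ker (LU m ω)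

theorem mem_UK {m : ℕ} {ω : K} {v : (Fin m ⊕ Fin m) ⊕ Fin 2 → K} :
    v ∈ UK m ω ↔ (∀ i, v (Sum.inl (Sum.inr i)) = 0) ∧ v (Sum.inr 0) = ω * v (Sum.inr 1) := by
  rw [UK, LinearMap.mem_ker, Prod.ext_iff]
  constructor
  · rintro ⟨h1, h2⟩
    exact ⟨fun i => congrFun h1 i, sub_eq_zero.mp h2⟩
  · rintro ⟨h1, h2⟩
    exact ⟨funext h1, sub_eq_zero.mpr h2⟩

theorem finrank_minus (m : ℕ) : finrank K ((Fin m ⊕ Fin m) ⊕ Fin 2 → K) = 2 * m + 2 := by
  rw [Module.finrank_fintype_fun_eq_card, minus_card]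

theorem finrank_UK (m : ℕ) (ω : K) : finrank K (UK m ω) = m + 1 := by
  have h1 := LinearMap.finrank_range_add_finrank_ker (LU m ω)
  have h2 : LinearMap.range (LU m ω) = ⊤ := by
    rw [LinearMap.range_eq_top]
    rintro ⟨x, c⟩
    refine ⟨Sum.elim (Sum.elim 0 x) (fun i => if i = 0 then c else 0), ?_⟩
    ext
    · rfl
    · simp [LU]
  rw [h2, finrank_top, finrank_minus, Module.finrank_prod, Module.finrank_fin_fun, Module.finrank_self] at h1
  change finrank K (LinearMap.ker (LU m ω)) = m + 1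
  omega

/-- an intersection. -/
def LU' (m : ℕ) : ((Fin m ⊕ Fin m) ⊕ Fin 2 → K) →ₗ[K] (Fin m → K) × K × K where
  toFun v := (fun i => v (Sum.inl (Sum.inr i)), v (Sum.inr 0), v (Sum.inr 1))
  map_add' v w := rfl
  map_smul' c v := rfl

theorem finrank_UK_inf (m : ℕ) {ω ω' : K} (h : ω ≠ ω') : finrank K (UK m ω ⊓ UK m ω' : Submodule K _) = m := by
  have h0 : UK m ω ⊓ UK m ω' = LinearMap.ker (LU' (K := K) m) := by
    ext v
    rw [Submodule.mem_inf, mem_UK, mem_UK, LinearMap.mem_ker, Prod.ext_iff, Prod.ext_iff]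
    constructor
    · rintro ⟨⟨h1, h2⟩, -, h3⟩
      have h4 : (ω - ω') * v (Sum.inr 1) = 0 := by linear_combination h3 - h2
      have h5 := (mul_eq_zero.mp h4).resolve_left (sub_ne_zero.mpr h)
      refine ⟨funext h1, ?_, h5⟩
      change v (Sum.inr 0) = 0
      rw [h2, h5, mul_zero]
    · rintro ⟨h1, h2, h3⟩
      have h2' : v (Sum.inr 0) = 0 := h2
      have h3' : v (Sum.inr 1) = 0 := h3
      exact ⟨⟨fun i => congrFun h1 i, by rw [h2', h3', mul_zero]⟩, fun i => congrFun h1 i, by rw [h2', h3', mul_zero]⟩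
  have h1 := LinearMap.finrank_range_add_finrank_ker (LU' (K := K) m)
  have h2 : LinearMap.range (LU' (K := K) m) = ⊤ := by
    rw [LinearMap.range_eq_top]
    rintro ⟨x, c, d⟩
    refine ⟨Sum.elim (Sum.elim 0 x) (fun i => if i = 0 then c else d), ?_⟩
    ext <;> simp [LU']
  rw [h2, finrank_top, finrank_minus, Module.finrank_prod, Module.finrank_prod, Module.finrank_fin_fun,
    Module.finrank_self] at h1
  rw [h0]
  omega

theorem isMax_UK (m : ℕ) {a b ω : K} (h : ω ^ 2 + a * ω + b = 0) : Quad.IsMax (Quad.minusQ K m a b) (UK m ω) := by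
  refine ⟨?_, by rw [finrank_UK, finrank_minus]; ring⟩
  intro v hv
  obtain ⟨h1, h2⟩ := mem_UK.mp hv
  rw [Quad.minusQ_apply]
  simp only [Cfsg.quadFormMinus, h1, h2, mul_zero, Finset.sum_const_zero, zero_add]
  linear_combination (v (Sum.inr 1)) ^ 2 * h

end UK

section Lift

variable {F : Type*} [Field F] [Finite F] {a b : F} {K : Type*} [Field K] [Finite K] (X : QX F a b K) {m : ℕ}
  (hab : ∀ z₁ z₂ : F, z₁ ^ 2 + a * z₁ * z₂ + b * z₂ ^ 2 = 0 → z₁ = 0 ∧ z₂ = 0)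

/-- the form over the extension. -/
noncomputable abbrev QK (X : QX F a b K) (m : ℕ) : QuadraticForm K ((Fin m ⊕ Fin m) ⊕ Fin 2 → K) :=
  Quad.minusQ K m (X.e a) (X.e b)

include hab in
theorem nd_QK (m : ℕ) : (QuadraticMap.polarBilin (QK X m)).Nondegenerate := by
  apply nd_minusQ'
  have h1 := Quad.aniso_disc hab
  intro h
  apply h1
  apply X.e.injective
  rw [map_zero, ← h, map_sub, map_mul, map_pow, map_ofNat]

/-- the parity over the extension. -/
noncomputable def parK (m : ℕ) : GamO ⇑(QK X m) →* ℤˣ := parH (nd_QK X hab m) (isMax_UK m X.hω)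

theorem map_gσ {ρ : K ≃+* K} {σ : F ≃+* F} (h : ∀ y, ρ (X.e y) = X.e (σ y)) {κ : Type} [Fintype κ] [DecidableEq κ] (g : GL κ F) :
    gσ ρ (Matrix.GeneralLinearGroup.map X.e g) = Matrix.GeneralLinearGroup.map X.e (gσ σ g) := by
  apply Units.ext
  ext i j
  exact h _

theorem up_mem {x : Gm ((Fin m ⊕ Fin m) ⊕ Fin 2) F} (hx : x ∈ GamO ⇑(Quad.minusQ F m a b)) {ρ : K ≃+* K}
    (h : ∀ y, ρ (X.e y) = X.e (x.right y)) :
    (⟨Matrix.GeneralLinearGroup.map X.e x.left, ρ⟩ : Gm ((Fin m ⊕ Fin m) ⊕ Fin 2) K) ∈ GamO ⇑(QK X m) := by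
  obtain ⟨c, hc⟩ := hx
  refine ⟨Units.map (X.e : F →* K) c, fun v => ?_⟩
  have h1 : ∀ w : (Fin m ⊕ Fin m) ⊕ Fin 2 → K, QK X m (((Matrix.GeneralLinearGroup.map X.e x.left :
      GL ((Fin m ⊕ Fin m) ⊕ Fin 2) K) : Matrix ((Fin m ⊕ Fin m) ⊕ Fin 2) ((Fin m ⊕ Fin m) ⊕ Fin 2) K) *ᵥ w) =
      X.e (c : F) * Quad.minusQ K m (ρ (X.e a)) (ρ (X.e b)) w := by
    intro w
    have h2 := ext_rat X.e (Q₁ := (QK X m).comp (Matrix.mulVecLin (((Matrix.GeneralLinearGroup.map X.e x.left :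
      GL ((Fin m ⊕ Fin m) ⊕ Fin 2) K) : Matrix ((Fin m ⊕ Fin m) ⊕ Fin 2) ((Fin m ⊕ Fin m) ⊕ Fin 2) K))))
      (Q₂ := X.e (c : F) • Quad.minusQ K m (ρ (X.e a)) (ρ (X.e b))) (by
        intro y
        rw [comp_gl, map_mulVec_coe]
        change _ = X.e (c : F) * Quad.minusQ K m (ρ (X.e a)) (ρ (X.e b)) (fun i => X.e (y i))
        rw [h, h, rat_minus, rat_minus, ← map_mul]
        congr 1
        obtain ⟨z, rfl⟩ := exists_map x.right y
        rw [hc]
        congr 1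
        exact (rat_minus (x.right : F →+* F) a b z).symm) w
    exact h2
  change QK X m (_ *ᵥ fun i => ρ (v i)) = X.e (c : F) * ρ (QK X m v)
  rw [h1]
  congr 1
  exact rat_minus (ρ : K →+* K) (X.e a) (X.e b) v

/-- pairs of a semisimilarity and an extension of its field automorphism. -/
def GH (X : QX F a b K) (m : ℕ) : Subgroup (GamO ⇑(Quad.minusQ F m a b) × (K ≃+* K)) where
  carrier := {p | ∀ y, p.2 (X.e y) = X.e ((p.1 : Gm ((Fin m ⊕ Fin m) ⊕ Fin 2) F).right y)}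
  one_mem' := fun y => rfl
  mul_mem' := by
    intro p q hp hq y
    rw [Prod.snd_mul, Prod.fst_mul, RingAut.mul_apply, hq, hp, Subgroup.coe_mul, SemidirectProduct.mul_right,
      RingAut.mul_apply]
  inv_mem' := by
    intro p hp y
    change p.2.symm (X.e y) = X.e (((p.1⁻¹ : GamO ⇑(Quad.minusQ F m a b)) : Gm ((Fin m ⊕ Fin m) ⊕ Fin 2) F).right y)
    rw [RingEquiv.symm_apply_eq, hp, Subgroup.coe_inv, SemidirectProduct.inv_right, ← RingAut.mul_apply, mul_inv_cancel]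
    rfl

/-- lifting. -/
def upH (m : ℕ) : GH X m →* GamO ⇑(QK X m) where
  toFun p := ⟨⟨Matrix.GeneralLinearGroup.map X.e (p.1.1 : Gm ((Fin m ⊕ Fin m) ⊕ Fin 2) F).left, p.1.2⟩, up_mem X p.1.1.2 p.2⟩
  map_one' := by
    apply Subtype.ext
    apply SemidirectProduct.ext
    · exact _root_.map_one _
    · rfl
  map_mul' p q := by
    apply Subtype.ext
    apply SemidirectProduct.ext
    · change Matrix.GeneralLinearGroup.map X.e ((p.1.1 : Gm ((Fin m ⊕ Fin m) ⊕ Fin 2) F).left *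
        gσ (p.1.1 : Gm ((Fin m ⊕ Fin m) ⊕ Fin 2) F).right (q.1.1 : Gm ((Fin m ⊕ Fin m) ⊕ Fin 2) F).left) =
        Matrix.GeneralLinearGroup.map X.e (p.1.1 : Gm ((Fin m ⊕ Fin m) ⊕ Fin 2) F).left *
          gσ p.1.2 (Matrix.GeneralLinearGroup.map X.e (q.1.1 : Gm ((Fin m ⊕ Fin m) ⊕ Fin 2) F).left)
      rw [_root_.map_mul, map_gσ X p.2]
    · rfl

theorem tau_mem (m : ℕ) : ((1, X.τ) : GamO ⇑(Quad.minusQ F m a b) × (K ≃+* K)) ∈ GH X m := fun y => X.hτ y

theorem parK_tau (m : ℕ) : parK X hab m (upH X m ⟨_, tau_mem X m⟩) = -1 := by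
  rw [parK, parH_apply]
  change pr (UK m X.ω) (im (⟨Matrix.GeneralLinearGroup.map X.e 1, X.τ⟩) (UK m X.ω)) = -1
  have h1 : im (⟨Matrix.GeneralLinearGroup.map X.e 1, X.τ⟩ : Gm ((Fin m ⊕ Fin m) ⊕ Fin 2) K) (UK m X.ω) = UK m (X.τ X.ω) := by
    have h2 : ∀ v, sl (⟨Matrix.GeneralLinearGroup.map X.e 1, X.τ⟩ : Gm ((Fin m ⊕ Fin m) ⊕ Fin 2) K) v = fun i => X.τ (v i) := by
      intro v
      rw [sl, _root_.map_one, Units.val_one, one_mulVec]
    ext w
    obtain ⟨v, rfl⟩ : ∃ v, w = sl (⟨Matrix.GeneralLinearGroup.map X.e 1, X.τ⟩ : Gm ((Fin m ⊕ Fin m) ⊕ Fin 2) K) v :=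
      ⟨_, (sl_sl_inv _ _).symm⟩
    rw [sl_mem_im, h2, mem_UK, mem_UK]
    constructor
    · rintro ⟨h3, h4⟩
      exact ⟨fun i => by rw [h3, map_zero], by rw [h4, map_mul]⟩
    · rintro ⟨h3, h4⟩
      exact ⟨fun i => (map_eq_zero X.τ).mp (h3 i), X.τ.injective (by rw [h4, map_mul])⟩
  rw [h1, pr, finrank_UK, finrank_UK_inf m X.hne.symm]
  exact Odd.neg_one_pow ⟨m, by ring⟩

/-- the extended field automorphism of a semisimilarity. -/
theorem exists_Sigma (m : ℕ) : ∃ S : GamO ⇑(Quad.minusQ F m a b) →* (K ≃+* K), ∀ x, ∃ h : (x, S x) ∈ GH X m,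
    parK X hab m (upH X m ⟨_, h⟩) = 1 := by
  let E : GH X m →* ℤˣ := (parK X hab m).comp (upH X m)
  let p : E.ker →* GamO ⇑(Quad.minusQ F m a b) := (MonoidHom.fst _ _).comp ((GH X m).subtype.comp E.ker.subtype)
  have hτ : E ⟨_, tau_mem X m⟩ = -1 := parK_tau X hab m
  have hinj : Function.Injective p := by
    rw [injective_iff_map_eq_one]
    rintro ⟨⟨⟨x, ρ⟩, h⟩, hE⟩ hx
    change x = 1 at hx
    subst hx
    have h1 : ∀ y, (1 : K ≃+* K) (X.e y) = ρ (X.e y) := fun y => (h y).symm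
    rcases X.unique h1 with h2 | h2
    · subst h2
      rfl
    · rw [one_mul] at h2
      subst h2
      have h3 : E ⟨_, tau_mem X m⟩ = 1 := hE
      rw [hτ] at h3
      exact absurd h3 (by decide)
  have hsurj : Function.Surjective p := by
    intro x
    obtain ⟨ρ, hρ⟩ := ext_sigma X.e (x : Gm ((Fin m ⊕ Fin m) ⊕ Fin 2) F).right
    have h1 : (x, ρ) ∈ GH X m := hρ
    rcases Int.units_eq_one_or (E ⟨_, h1⟩) with h2 | h2
    · exact ⟨⟨⟨_, h1⟩, h2⟩, rfl⟩
    · refine ⟨⟨⟨_, h1⟩ * ⟨_, tau_mem X m⟩, ?_⟩, ?_⟩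
      · rw [MonoidHom.mem_ker, _root_.map_mul, h2, hτ]
        rfl
      · exact mul_one x
  let P : E.ker ≃* GamO ⇑(Quad.minusQ F m a b) := MulEquiv.ofBijective p ⟨hinj, hsurj⟩
  refine ⟨((MonoidHom.snd _ _).comp ((GH X m).subtype.comp E.ker.subtype)).comp P.symm.toMonoidHom, fun x => ?_⟩
  obtain ⟨⟨⟨⟨y, ρ⟩, h1⟩, h2⟩, h3⟩ := P.surjective x
  have h4 : y = x := h3
  subst h4
  have h5 : P.symm y = ⟨⟨⟨y, ρ⟩, h1⟩, h2⟩ := by
    rw [MulEquiv.symm_apply_eq]
    exact h3.symm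
  have h6 : ((MonoidHom.snd _ _).comp ((GH X m).subtype.comp E.ker.subtype)).comp P.symm.toMonoidHom y = ρ := by
    change (P.symm y).1.1.2 = ρ
    rw [h5]
  rw [h6]
  exact ⟨h1, h2⟩

end Lift

end Cfsg.Agent.H16.Par
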