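import Cfsg.Agent.H16_Par5

set_option autoImplicit false

/-! Minus type: the outer automorphism group. -/

namespace Cfsg.Agent.H16.Par

open Matrix Cfsg.Agent.H16.Ps Module Cfsg.Agent.H16.Gam Cfsg.Agent.H16.AutL Cfsg.Agent.H16.AutG Cfsg.Agent.H16.Desc
open QuadraticMap (polar)
open Cfsg.Agent.H16 Cfsg.Agent.H16.POm

section Chars

variable {ι : Type} [Fintype ι] [DecidableEq ι] {F : Type*} [Field F] [Finite F] (A : OD ι F)

/-- the first character. -/
noncomputable def del : Cfsg.isometryGroup F ⇑A.Q →* ℤˣ := (Quad.iso_chars A.nd (ne_four_or A)).choose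

/-- the second character. -/
noncomputable def the : Cfsg.isometryGroup F ⇑A.Q →* ℤˣ := (Quad.iso_chars A.nd (ne_four_or A)).choose_spec.choose

theorem mem_Om (g : Cfsg.isometryGroup F ⇑A.Q) : g ∈ Cfsg.Omega F ⇑A.Q ↔ del A g = 1 ∧ the A g = 1 :=
  (Quad.iso_chars A.nd (ne_four_or A)).choose_spec.choose_spec.2.1 g

theorem det_del (g : Cfsg.isometryGroup F ⇑A.Q) : ((g : GL ι F) : Matrix ι ι F).det = ((del A g : ℤˣ) : ℤ) :=
  (Quad.iso_chars A.nd (ne_four_or A)).choose_spec.choose_spec.2.2.1 g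

theorem dt_rpr {g : Cfsg.isometryGroup F ⇑A.Q} {vs : List (ι → F)} (hvs : ∀ v ∈ vs, A.Q v ≠ 0)
    (hg : Quad.toOG A.Q g = Quad.rpr A.Q vs) : del A g = (-1) ^ vs.length ∧ (the A g = 1 ↔ IsSquare (vs.map A.Q).prod) :=
  (Quad.iso_chars A.nd (ne_four_or A)).choose_spec.choose_spec.2.2.2.1 g vs hvs hg

theorem del_fix (g : Cfsg.isometryGroup F ⇑A.Q) :
    del A g = (-1) ^ (finrank F (ι → F) + finrank F (Quad.fixS (Quad.toOG A.Q g).1)) :=
  (Quad.iso_chars A.nd (ne_four_or A)).choose_spec.choose_spec.2.2.2.2 g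

theorem exists_vs (g : Cfsg.isometryGroup F ⇑A.Q) : ∃ vs : List (ι → F), (∀ v ∈ vs, A.Q v ≠ 0) ∧
    Quad.toOG A.Q g = Quad.rpr A.Q vs := by
  obtain ⟨vs, h1, h2, -⟩ := Quad.iso_exists_list A.nd (ne_four_or A) g
  exact ⟨vs, h1, h2⟩

theorem the_one (h2 : (2 : F) = 0) (g : Cfsg.isometryGroup F ⇑A.Q) : the A g = 1 := by
  obtain ⟨vs, h1, h3⟩ := exists_vs A g
  exact ((dt_rpr A h1 h3).2).mpr (Quad.isSquare_of_two_eq_zero h2 _)

theorem del_neg (he : Even (Fintype.card ι)) : del A (negO A) = 1 := by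
  have h3 := det_del A (negO A)
  have h4 : (((negO A : Cfsg.isometryGroup F ⇑A.Q) : GL ι F) : Matrix ι ι F).det = 1 := by
    change (Matrix.scalar ι (((-1 : Fˣ)) : F)).det = _
    rw [Matrix.scalar_apply, Matrix.det_diagonal, Finset.prod_const, Finset.card_univ, Units.val_neg, Units.val_one,
      he.neg_one_pow]
  by_cases h2 : (2 : F) = 0
  · have h5 : negO A = 1 := by
      have h4 : (-1 : Fˣ) = 1 := Units.ext (by rw [Units.val_neg, Units.val_one]; linear_combination -h2)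
      apply Subtype.ext
      change scl ι (-1) = 1
      rw [h4, _root_.map_one]
    rw [h5, _root_.map_one]
  · rcases Int.units_eq_one_or (del A (negO A)) with h | h
    · exact h
    · rw [h4, h] at h3
      exfalso
      apply h2
      have : (1 : F) = -1 := by simpa using h3
      linear_combination this

theorem the_neg (he : Even (Fintype.card ι)) (hn : negO A ∉ Cfsg.Omega F ⇑A.Q) : the A (negO A) = -1 := by
  rcases Int.units_eq_one_or (the A (negO A)) with h | h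
  · exact absurd ((mem_Om A _).mpr ⟨del_neg A he, h⟩) hn
  · exact h

theorem fO_neg : fO A (negO A) = 1 := MonoidHom.mem_ker.mp ((fO_ker A _).mpr ⟨_, rfl⟩)

/-- rotations are inner when `-1 ∉ Ω`. -/
theorem so_inn (he : Even (Fintype.card ι)) (h : (2 : F) = 0 ∨ negO A ∉ Cfsg.Omega F ⇑A.Q) {g : Cfsg.isometryGroup F ⇑A.Q}
    (hg : del A g = 1) : fO A g ∈ Cfsg.Inn (Cfsg.POmega F ⇑A.Q) := by
  rcases h with h | h
  · exact fO_inn A ((mem_Om A g).mpr ⟨hg, the_one A h g⟩)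
  · rcases Int.units_eq_one_or (the A g) with h1 | h1
    · exact fO_inn A ((mem_Om A g).mpr ⟨hg, h1⟩)
    · have h3 : fO A g = fO A (g * negO A) := by rw [_root_.map_mul, fO_neg, mul_one]
      rw [h3]
      apply fO_inn A
      rw [mem_Om, _root_.map_mul, _root_.map_mul, hg, h1, del_neg A he, the_neg A he h]
      exact ⟨rfl, rfl⟩

/-- similarities with square multiplier. -/
theorem sq_mult (g : (fam A).N) (h : sqc F (muN A g) = 1) : ∃ (d : Fˣ) (u : Cfsg.isometryGroup F ⇑A.Q),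
    g = ⟨scl ι d, (fam A).sc d⟩ * ⟨u, iso_le_N A u.2⟩ := by
  rw [sqc_eq_one] at h
  obtain ⟨d, hd⟩ := h
  have hd0 : d ≠ 0 := by
    rintro rfl
    rw [mul_zero] at hd
    exact (muN A g).ne_zero hd
  have h1 : muN A (⟨scl ι (Units.mk0 d hd0)⁻¹, (fam A).sc _⟩ * g) = 1 := by
    rw [_root_.map_mul, muN_scl]
    apply Units.ext
    rw [Units.val_mul, hd, Units.val_pow_eq_pow_val, Units.val_inv_eq_inv_val, Units.val_mk0, Units.val_one]
    field_simp
  refine ⟨Units.mk0 d hd0, ⟨_, (muN_ker A _).mp h1⟩, ?_⟩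
  apply Subtype.ext
  change (g : GL ι F) = scl ι (Units.mk0 d hd0) * (scl ι (Units.mk0 d hd0)⁻¹ * (g : GL ι F))
  rw [← mul_assoc, ← _root_.map_mul, mul_inv_cancel, _root_.map_one, one_mul]

theorem T_scl (d : Fˣ) : (fam A).T ((fam A).nin ⟨scl ι d, (fam A).sc d⟩) = 1 := (Fam.ker_nin _).mpr ⟨d, rfl⟩

end Chars

theorem toOG_map {ι : Type} [Fintype ι] [DecidableEq ι] {F K : Type*} [Field F] [Field K] (e : K →+* F)
    {Q : QuadraticForm F (ι → F)} {R : QuadraticForm K (ι → K)} (hR : ∀ x : ι → K, Q (fun i => e (x i)) = e (R x))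
    {g : Cfsg.isometryGroup K ⇑R} {vs : List (ι → K)} (h : Quad.toOG R g = Quad.rpr R vs) :
    Quad.toOG Q ⟨Matrix.GeneralLinearGroup.map e (g : GL ι K), (map_iso e hR _).mpr g.2⟩ =
        Quad.rpr Q (vs.map fun v i => e (v i)) := by
  have h3 : ((g : GL ι K) : Matrix ι ι K) = (vs.map (fun v => Cfsg.reflectionMatrix ⇑R v)).prod := by
    rw [← Quad.symm_rpr_coe, ← h, MulEquiv.symm_apply_apply]
  apply Quad.toOG_rpr
  change ((g : GL ι K) : Matrix ι ι K).map e = _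
  rw [h3, ← RingHom.mapMatrix_apply, map_list_prod, List.map_map, List.map_map]
  congr 1
  apply List.map_congr_left
  intro v _
  exact map_reflection e hR v

section Minus

variable {F : Type*} [Field F] [Finite F] {a b : F} {K : Type*} [Field K] [Finite K] (X : QX F a b K) {m : ℕ}
  (hab : ∀ z₁ z₂ : F, z₁ ^ 2 + a * z₁ * z₂ + b * z₂ ^ 2 = 0 → z₁ = 0 ∧ z₂ = 0) (hm : 3 ≤ m)

/-- linear elements. -/
noncomputable def nu : (fam (odM hab hm)).N →* GH X m where
  toFun g := ⟨((fam (odM hab hm)).nin g, 1), fun _ => rfl⟩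
  map_one' := rfl
  map_mul' g h := rfl

/-- parity of similarities. -/
noncomputable def EK : (fam (odM hab hm)).N →* ℤˣ := (parK X hab m).comp ((upH X m).comp (nu X hab hm))

theorem EK_apply (g : (fam (odM hab hm)).N) : EK X hab hm g = parK X hab m (upH X m (nu X hab hm g)) := rfl

theorem EK_scl (c : Fˣ) : EK X hab hm ⟨scl _ c, (fam (odM hab hm)).sc c⟩ = 1 := by
  have h1 := parH_scl (nd_QK X hab m) (isMax_UK m X.hω) (Units.map (X.e : F →* K) c)
  rw [← h1]
  change parK X hab m _ = parK X hab m _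
  congr 1
  apply Subtype.ext
  apply SemidirectProduct.ext
  · apply Units.ext
    ext i j
    change X.e ((Matrix.scalar _ (c : F)) i j) = (Matrix.scalar _ (X.e (c : F))) i j
    rw [Matrix.scalar_apply, Matrix.scalar_apply, Matrix.diagonal_apply, Matrix.diagonal_apply]
    split_ifs <;> simp
  · rfl

theorem rat_QK (x : (Fin m ⊕ Fin m) ⊕ Fin 2 → F) : QK X m (fun i => X.e (x i)) = X.e (Quad.minusQ F m a b x) :=
  rat_minus X.e a b x

theorem EK_iso (u : Cfsg.isometryGroup F ⇑(odM hab hm).Q) :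
    EK X hab hm ⟨u, iso_le_N (odM hab hm) u.2⟩ = del (odM hab hm) u := by
  obtain ⟨vs, h1, h2⟩ := exists_vs (odM hab hm) u
  rw [(dt_rpr (odM hab hm) h1 h2).1]
  have h3 := toOG_map X.e (rat_QK X) h2
  have h4 := parH_rpr (nd_QK X hab m) (isMax_UK m X.hω) (vs := vs.map fun v i => X.e (v i)) (by
    intro v hv
    obtain ⟨w, hw, rfl⟩ := List.mem_map.mp hv
    rw [rat_QK, Ne, map_eq_zero]
    exact h1 w hw) h3
  rw [List.length_map] at h4
  rw [← h4]
  rfl

/-- the kernel of the extended field automorphism. -/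
theorem Sigma_ker {S : GamO ⇑(Quad.minusQ F m a b) →* (K ≃+* K)}
    (hS : ∀ x, ∃ h : (x, S x) ∈ GH X m, parK X hab m (upH X m ⟨_, h⟩) = 1)
    (x : (fam (odM hab hm)).Γ) : S x = 1 ↔ ∃ g : (fam (odM hab hm)).N, x = (fam (odM hab hm)).nin g ∧ EK X hab hm g = 1 := by
  obtain ⟨h1, h2⟩ := hS x
  constructor
  · intro h
    have hr : (x : Gm ((Fin m ⊕ Fin m) ⊕ Fin 2) F).right = 1 := by
      ext y
      apply X.e.injective
      have h3 := h1 y
      rw [← h3]
      change S x (X.e y) = X.e y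
      rw [h]
      rfl
    have h3 : (x : Gm ((Fin m ⊕ Fin m) ⊕ Fin 2) F) = SemidirectProduct.inl (x : Gm ((Fin m ⊕ Fin m) ⊕ Fin 2) F).left := by
      apply SemidirectProduct.ext
      · rfl
      · exact hr
    have h4 : (x : Gm ((Fin m ⊕ Fin m) ⊕ Fin 2) F).left ∈ (fam (odM hab hm)).N := by
      rw [Fam.mem_N, ← h3]
      exact x.2
    have h5 : x = (fam (odM hab hm)).nin ⟨_, h4⟩ := Subtype.ext h3
    refine ⟨⟨_, h4⟩, h5, ?_⟩
    rw [← h2, EK_apply]
    congr 2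
    apply Subtype.ext
    exact Prod.ext h5.symm h.symm
  · rintro ⟨g, hg, hE⟩
    have h3 : ∀ y, (1 : K ≃+* K) (X.e y) = S x (X.e y) := by
      intro y
      have h4 := h1 y
      change S x (X.e y) = _ at h4
      rw [h4, hg]
      rfl
    rcases X.unique h3 with h4 | h4
    · exact h4
    · exfalso
      rw [one_mul] at h4
      have h5 : (⟨(x, S x), h1⟩ : GH X m) = nu X hab hm g * ⟨_, tau_mem X m⟩ := by
        apply Subtype.ext
        refine Prod.ext ?_ ?_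
        · change x = (fam (odM hab hm)).nin g * 1
          rw [mul_one, hg]
        · change S x = 1 * X.τ
          rw [one_mul, h4]
      rw [h5, _root_.map_mul, _root_.map_mul, ← EK_apply, hE, parK_tau] at h2
      exact absurd h2 (by decide)

theorem Sigma_Om {S : GamO ⇑(Quad.minusQ F m a b) →* (K ≃+* K)}
    (hS : ∀ x, ∃ h : (x, S x) ∈ GH X m, parK X hab m (upH X m ⟨_, h⟩) = 1)
    (s : Cfsg.Omega F ⇑(odM hab hm).Q) : S ((fam (odM hab hm)).inc s) = 1 := by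
  rw [Sigma_ker X hab hm hS]
  refine ⟨⟨s.1, iso_le_N _ s.1.2⟩, rfl, ?_⟩
  rw [EK_iso]
  exact ((mem_Om _ _).mp s.2).1

theorem Sigma_sc {S : GamO ⇑(Quad.minusQ F m a b) →* (K ≃+* K)}
    (hS : ∀ x, ∃ h : (x, S x) ∈ GH X m, parK X hab m (upH X m ⟨_, h⟩) = 1)
    {x : (fam (odM hab hm)).Γ} (hx : (fam (odM hab hm)).T x = 1) : S x = 1 := by
  obtain ⟨c, hc⟩ := ((fam (odM hab hm)).T_eq_one_iff x).mp hx
  rw [Sigma_ker X hab hm hS]
  exact ⟨⟨scl _ c, (fam (odM hab hm)).sc c⟩, Subtype.ext hc, EK_scl X hab hm c⟩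

theorem msq_sc {ι : Type} [Fintype ι] [DecidableEq ι] (A : OD ι F) {x : (fam A).Γ} (hx : (fam A).T x = 1) : msq A x = 1 := by
  obtain ⟨c, hc⟩ := ((fam A).T_eq_one_iff x).mp hx
  have h1 : x = (fam A).nin ⟨scl _ c, (fam A).sc c⟩ := Subtype.ext hc
  rw [h1]
  have h2 := muN_scl A c
  change sqc F (muN A ⟨scl _ c, (fam A).sc c⟩) = 1
  rw [h2, sqc_sq]

theorem msq_Om {ι : Type} [Fintype ι] [DecidableEq ι] (A : OD ι F) (s : Cfsg.Omega F ⇑A.Q) : msq A ((fam A).inc s) = 1 := by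
  have h1 : muN A ⟨s.1, iso_le_N _ s.1.2⟩ = 1 := (muN_ker A _).mpr s.1.2
  change sqc F (muN A ⟨s.1, iso_le_N _ s.1.2⟩) = 1
  rw [h1, _root_.map_one]

/-- a homomorphism from the outer automorphism group. -/
theorem out_lift {ι : Type} [Fintype ι] [DecidableEq ι] {A : OD ι F} (hA : (fam A).Full) {G : Type*} [Group G] (f : (fam A).Γ →* G)
    (h1 : ∀ x, (fam A).T x = 1 → f x = 1) (h2 : ∀ s, f ((fam A).inc s) = 1)
    (h3 : ∀ x, f x = 1 → (fam A).T x ∈ Cfsg.Inn (Cfsg.POmega F ⇑A.Q)) :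
    ∃ φ : Cfsg.Out (Cfsg.POmega F ⇑A.Q) →* G, Function.Injective φ ∧
      ∀ x, φ (QuotientGroup.mk ((fam A).T x)) = f x := by
  have h0 : (fam A).T.ker ≤ f.ker := fun x hx => h1 x hx
  let θ : MulAut (Cfsg.POmega F ⇑A.Q) →* G := ((fam A).T.liftOfSurjective hA) ⟨f, h0⟩
  have hθ : ∀ x, θ ((fam A).T x) = f x := fun x => MonoidHom.liftOfRightInverse_comp_apply _ _ _ ⟨f, h0⟩ x
  have hI : Cfsg.Inn (Cfsg.POmega F ⇑A.Q) ≤ θ.ker := by
    rintro _ ⟨s, rfl⟩
    induction s using QuotientGroup.induction_on with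
    | H s =>
      rw [MonoidHom.mem_ker]
      have h4 := (fam A).T_inc s
      have h5 : (MulAut.conj (QuotientGroup.mk s : Cfsg.POmega F ⇑A.Q)) = (fam A).T ((fam A).inc s) := h4.symm
      rw [h5, hθ, h2]
  let φ : Cfsg.Out (Cfsg.POmega F ⇑A.Q) →* G := QuotientGroup.lift _ θ hI
  refine ⟨φ, ?_, fun x => hθ x⟩
  rw [injective_iff_map_eq_one]
  intro y hy
  obtain ⟨α, rfl⟩ := QuotientGroup.mk_surjective y
  obtain ⟨x, rfl⟩ := hA α
  apply (QuotientGroup.eq_one_iff _).mpr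
  apply h3
  rw [← hθ]
  exact hy

theorem card_out {ι : Type} [Fintype ι] [DecidableEq ι] (A : OD ι F) :
    Nat.card (MulAut (Cfsg.POmega F ⇑A.Q)) = Nat.card (Cfsg.Out (Cfsg.POmega F ⇑A.Q)) * Nat.card (Cfsg.POmega F ⇑A.Q) := by
  have h1 := Subgroup.card_eq_card_quotient_mul_card_subgroup (Cfsg.Inn (Cfsg.POmega F ⇑A.Q))
  have h2 := (fam A).card_inn
  rw [h1]
  congr 1

end Minus

end Cfsg.Agent.H16.Par
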