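import Cfsg.Agent.H16_Par6
import Cfsg.Agent.H16_Dih

set_option autoImplicit false

/-! Even dimension: the group of similarities modulo the inner automorphisms. -/

namespace Cfsg.Agent.H16.Par

open Matrix Cfsg.Agent.H16.Ps Module Cfsg.Agent.H16.Gam Cfsg.Agent.H16.AutL Cfsg.Agent.H16.AutG Cfsg.Agent.H16.Desc
open QuadraticMap (polar)
open Cfsg.Agent.H16 Cfsg.Agent.H16.POm

section Ev

variable {ι : Type} [Fintype ι] [DecidableEq ι] {F : Type*} [Field F] [Finite F]

/-- the parity character of similarities. -/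
structure EvS (A : OD ι F) where
  E : (fam A).N →* ℤˣ
  scl : ∀ c, E ⟨scl ι c, (fam A).sc c⟩ = 1
  iso : ∀ u : Cfsg.isometryGroup F ⇑A.Q, E ⟨u, iso_le_N A u.2⟩ = del A u
  mul : ∀ c : Fˣ, ∃ g : (fam A).N, muN A g = c
  even : Even (Fintype.card ι)

variable {A : OD ι F}

theorem fO_mem_inn (h : negO A ∈ Cfsg.Omega F ⇑A.Q) {u : Cfsg.isometryGroup F ⇑A.Q} :
    fO A u ∈ Cfsg.Inn (Cfsg.POmega F ⇑A.Q) ↔ u ∈ Cfsg.Omega F ⇑A.Q := by
  constructor
  · intro hu
    obtain ⟨s, hs, e⟩ := inn_fO A _ hu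
    have h1 : u * s⁻¹ ∈ (fO A).ker := by
      rw [MonoidHom.mem_ker, _root_.map_mul, _root_.map_inv, e, mul_inv_cancel]
    obtain ⟨c, hc⟩ := (fO_ker A _).mp h1
    have h2 : scl ι c ∈ Cfsg.isometryGroup F ⇑A.Q := by rw [← hc]; exact (u * s⁻¹).2
    have h3 : u * s⁻¹ ∈ Cfsg.Omega F ⇑A.Q := by
      rcases (scl_iso A).mp h2 with rfl | rfl
      · have : u * s⁻¹ = 1 := Subtype.ext (by rw [hc, _root_.map_one]; rfl)
        rw [this]
        exact one_mem _
      · have : u * s⁻¹ = negO A := Subtype.ext hc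
        rw [this]
        exact h
    have := mul_mem h3 hs
    rwa [inv_mul_cancel_right] at this
  · exact fun h => fO_inn A h

theorem relIndex_card : (Cfsg.Inn (Cfsg.POmega F ⇑A.Q)).relIndex (fam A).D * Nat.card (Cfsg.POmega F ⇑A.Q) =
    Nat.card (fam A).D := by
  have h1 := (fam A).card_inn
  have h3 := Subgroup.relIndex_mul_relIndex ⊥ (Cfsg.Inn (Cfsg.POmega F ⇑A.Q)) (fam A).D bot_le (fam A).inn_le_D
  rw [Subgroup.relIndex_bot_left, Subgroup.relIndex_bot_left] at h3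
  rw [← h3, mul_comm]
  congr 1
  exact h1.symm

/-- the image of `D` in the outer automorphism group. -/
noncomputable abbrev MO (A : OD ι F) : Subgroup (Cfsg.Out (Cfsg.POmega F ⇑A.Q)) :=
  (fam A).D.map (QuotientGroup.mk' (Cfsg.Inn (Cfsg.POmega F ⇑A.Q)))

theorem card_MO : Nat.card (MO A) = (Cfsg.Inn (Cfsg.POmega F ⇑A.Q)).relIndex (fam A).D := by
  rw [← Subgroup.relIndex_ker, QuotientGroup.ker_mk']

open Classical in
theorem relIndex_even (S : EvS A) (h2 : (2 : F) ≠ 0) : (Cfsg.Inn (Cfsg.POmega F ⇑A.Q)).relIndex (fam A).D =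
    if negO A ∈ Cfsg.Omega F ⇑A.Q then 8 else 4 := by
  have h1 := relIndex_card (A := A)
  rw [card_D_even A S.mul, card_iso_odd A h2] at h1
  exact Nat.eq_of_mul_eq_mul_right Nat.card_pos h1

/-- reflections. -/
noncomputable def rfl' (A : OD ι F) (v : ι → F) : Cfsg.isometryGroup F ⇑A.Q := (Quad.toOG A.Q).symm (Quad.rf A.Q v)

theorem toOG_rfl' (v : ι → F) : Quad.toOG A.Q (rfl' A v) = Quad.rf A.Q v := MulEquiv.apply_symm_apply _ _

theorem rfl'_sq (v : ι → F) : rfl' A v * rfl' A v = 1 := by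
  rw [rfl', ← _root_.map_mul, Quad.rf_sq, _root_.map_one]

theorem del_rfl' {v : ι → F} (hv : A.Q v ≠ 0) : del A (rfl' A v) = -1 := by
  have h1 := (dt_rpr A (g := rfl' A v) (vs := [v]) (by simpa using hv) (by
    rw [toOG_rfl', Quad.rpr_cons, Quad.rpr_nil, mul_one])).1
  rw [h1]
  simp

theorem the_rfl' {v : ι → F} (hv : A.Q v ≠ 0) : the A (rfl' A v) = 1 ↔ IsSquare (A.Q v) := by
  have h1 := (dt_rpr A (g := rfl' A v) (vs := [v]) (by simpa using hv) (by
    rw [toOG_rfl', Quad.rpr_cons, Quad.rpr_nil, mul_one])).2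
  rw [h1]
  simp

theorem rfl'_mulVec (v x : ι → F) : (((rfl' A v : Cfsg.isometryGroup F ⇑A.Q) : GL ι F) : Matrix ι ι F) *ᵥ x =
    Quad.refl A.Q v x := by
  rw [← Quad.toOG_apply, toOG_rfl']
  rfl

/-- conjugating a reflection by a similarity. -/
theorem conj_rfl' (g : (fam A).N) (v : ι → F) : (g : GL ι F) * (rfl' A v : GL ι F) * (g : GL ι F)⁻¹ =
    (rfl' A (((g : GL ι F) : Matrix ι ι F) *ᵥ v) : GL ι F) := by
  rw [mul_inv_eq_iff_eq_mul]
  apply PSp.gl_ext
  intro x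
  rw [PSp.coe_mul_mulVec, PSp.coe_mul_mulVec, rfl'_mulVec, rfl'_mulVec, Quad.refl_apply, Quad.refl_apply,
    mulVec_sub, mulVec_smul]
  congr 2
  have h1 := muN_spec A g
  have h3 : polar A.Q (((g : GL ι F) : Matrix ι ι F) *ᵥ x) (((g : GL ι F) : Matrix ι ι F) *ᵥ v) =
      (muN A g : F) * polar A.Q x v := by
    rw [polar, polar, ← mulVec_add, h1, h1, h1]
    ring
  rw [h3, h1]
  have h4 : (muN A g : F) ≠ 0 := (muN A g).ne_zero
  by_cases h5 : A.Q v = 0
  · rw [h5, mul_zero, _root_.inv_zero, zero_mul, zero_mul]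
  · field_simp

theorem fO_eq (u : Cfsg.isometryGroup F ⇑A.Q) : fO A u = (fam A).T ((fam A).nin ⟨u, iso_le_N A u.2⟩) := rfl

/-- the swap structure. -/
theorem swap (S : EvS A) (h2 : (2 : F) ≠ 0) (hneg : negO A ∈ Cfsg.Omega F ⇑A.Q) (g : (fam A).N)
    (hg : sqc F (muN A g) = -1) : ∃ a b d : MO A, a * a = 1 ∧ b * b = 1 ∧ a * b = b * a ∧ a ≠ b ∧ d * a = b * d ∧
      (d * d = 1 ∨ d * d = a * b) ∧
      (d : Cfsg.Out (Cfsg.POmega F ⇑A.Q)) = QuotientGroup.mk ((fam A).T ((fam A).nin g)) ∧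
      (∃ v w, A.Q v ≠ 0 ∧ IsSquare (A.Q v) ∧ A.Q w ≠ 0 ∧ ¬ IsSquare (A.Q w) ∧
        (a : Cfsg.Out (Cfsg.POmega F ⇑A.Q)) = QuotientGroup.mk (fO A (rfl' A v)) ∧
        (b : Cfsg.Out (Cfsg.POmega F ⇑A.Q)) = QuotientGroup.mk (fO A (rfl' A w))) := by
  have h7 := A.h7
  obtain ⟨⟨v, hv, hv2⟩, w, hw, hw2⟩ := Quad.exists_both A.nd h2 (by
    rw [Module.finrank_fintype_fun_eq_card]; omega)
  have hD : ∀ u : Cfsg.isometryGroup F ⇑A.Q, fO A u ∈ (fam A).D := fun u => ⟨⟨u, iso_le_N A u.2⟩, rfl⟩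
  let P : MulAut (Cfsg.POmega F ⇑A.Q) →* Cfsg.Out (Cfsg.POmega F ⇑A.Q) := QuotientGroup.mk' _
  have hP : ∀ x y : MulAut (Cfsg.POmega F ⇑A.Q), x * y⁻¹ ∈ Cfsg.Inn (Cfsg.POmega F ⇑A.Q) → P x = P y := by
    intro x y h
    rw [← mul_inv_eq_one, ← _root_.map_inv, ← _root_.map_mul]
    exact (QuotientGroup.eq_one_iff _).mpr h
  have hPO : ∀ u u' : Cfsg.isometryGroup F ⇑A.Q, del A u = del A u' → the A u = the A u' → P (fO A u) = P (fO A u') := by
    intro u u' e1 e2
    apply hP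
    rw [← _root_.map_inv, ← _root_.map_mul]
    apply fO_inn
    rw [mem_Om, _root_.map_mul, _root_.map_mul, _root_.map_inv, _root_.map_inv, e1, e2, mul_inv_cancel, mul_inv_cancel]
    exact ⟨rfl, rfl⟩
  have tw : the A (rfl' A w) = -1 := by
    rcases Int.units_eq_one_or (the A (rfl' A w)) with h | h
    · exact absurd ((the_rfl' hw).mp h) hw2
    · exact h
  have tv : the A (rfl' A v) = 1 := (the_rfl' hv).mpr hv2
  have f1 : ∀ v, P (fO A (rfl' A v)) * P (fO A (rfl' A v)) = 1 := by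
    intro v
    rw [← _root_.map_mul, ← _root_.map_mul, rfl'_sq, _root_.map_one, _root_.map_one]
  have f3 : P (fO A (rfl' A v)) * P (fO A (rfl' A w)) = P (fO A (rfl' A w)) * P (fO A (rfl' A v)) := by
    rw [← _root_.map_mul, ← _root_.map_mul, ← _root_.map_mul, ← _root_.map_mul]
    apply hPO
    · rw [_root_.map_mul, _root_.map_mul, mul_comm]
    · rw [_root_.map_mul, _root_.map_mul, mul_comm]
  have f4 : P (fO A (rfl' A v)) ≠ P (fO A (rfl' A w)) := by
    intro h1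
    have h3 : fO A (rfl' A v * (rfl' A w)⁻¹) ∈ Cfsg.Inn (Cfsg.POmega F ⇑A.Q) := by
      rw [_root_.map_mul, _root_.map_inv]
      apply (QuotientGroup.eq_one_iff _).mp
      change P _ = 1
      rw [_root_.map_mul, _root_.map_inv, h1, mul_inv_cancel]
    rw [fO_mem_inn hneg, mem_Om, _root_.map_mul, _root_.map_mul, _root_.map_inv, _root_.map_inv, tv, tw] at h3
    exact absurd h3.2 (by decide)
  have f5 : P ((fam A).T ((fam A).nin g)) * P (fO A (rfl' A v)) = P (fO A (rfl' A w)) * P ((fam A).T ((fam A).nin g)) := by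
    have h1 : (fam A).T ((fam A).nin g) * fO A (rfl' A v) =
        fO A (rfl' A (((g : GL ι F) : Matrix ι ι F) *ᵥ v)) * (fam A).T ((fam A).nin g) := by
      rw [fO_eq, fO_eq, ← _root_.map_mul, ← _root_.map_mul, ← _root_.map_mul, ← _root_.map_mul]
      congr 2
      apply Subtype.ext
      change (g : GL ι F) * (rfl' A v : GL ι F) = (rfl' A _ : GL ι F) * (g : GL ι F)
      rw [← conj_rfl' g v, inv_mul_cancel_right]
    rw [← _root_.map_mul, h1, _root_.map_mul]
    congr 1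
    have h3 : A.Q (((g : GL ι F) : Matrix ι ι F) *ᵥ v) ≠ 0 := by
      rw [muN_spec A g]
      exact mul_ne_zero (muN A g).ne_zero hv
    apply hPO
    · rw [del_rfl' h3, del_rfl' hw]
    · rw [tw]
      rcases Int.units_eq_one_or (the A (rfl' A (((g : GL ι F) : Matrix ι ι F) *ᵥ v))) with h | h
      · exfalso
        have h4 := (the_rfl' h3).mp h
        rw [muN_spec A g, Quad.isSquare_mul_iff (muN A g).ne_zero hv] at h4
        have h5 := sqc_eq_one.mpr (h4.mpr hv2)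
        rw [hg] at h5
        exact absurd h5 (by decide)
      · exact h
  have f6 : P ((fam A).T ((fam A).nin g)) * P ((fam A).T ((fam A).nin g)) = 1 ∨
      P ((fam A).T ((fam A).nin g)) * P ((fam A).T ((fam A).nin g)) = P (fO A (rfl' A v)) * P (fO A (rfl' A w)) := by
    obtain ⟨d, u, hdu⟩ := sq_mult A (g * g) (by
      rw [_root_.map_mul, _root_.map_mul, hg]; rfl)
    have h1 : del A u = 1 := by
      have h3 := congrArg S.E hdu
      rw [_root_.map_mul, _root_.map_mul, S.scl, S.iso, one_mul] at h3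
      rw [← h3]
      rcases Int.units_eq_one_or (S.E g) with h | h <;> rw [h] <;> rfl
    have h3 : P ((fam A).T ((fam A).nin g)) * P ((fam A).T ((fam A).nin g)) = P (fO A u) := by
      rw [← _root_.map_mul, ← _root_.map_mul, ← _root_.map_mul, hdu, _root_.map_mul, _root_.map_mul, T_scl, one_mul,
        fO_eq]
    rw [h3]
    rcases Int.units_eq_one_or (the A u) with h | h
    · left
      exact (QuotientGroup.eq_one_iff _).mpr (fO_inn A ((mem_Om A u).mpr ⟨h1, h⟩))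
    · right
      rw [← _root_.map_mul, ← _root_.map_mul]
      apply hPO
      · rw [h1, _root_.map_mul, del_rfl' hv, del_rfl' hw]; rfl
      · rw [h, _root_.map_mul, tv, tw]; rfl
  refine ⟨⟨P (fO A (rfl' A v)), _, hD _, rfl⟩, ⟨P (fO A (rfl' A w)), _, hD _, rfl⟩,
    ⟨P ((fam A).T ((fam A).nin g)), _, ⟨g, rfl⟩, rfl⟩, Subtype.ext (f1 v), Subtype.ext (f1 w), Subtype.ext f3,
    fun h => f4 (congrArg Subtype.val h), Subtype.ext f5, ?_, rfl, v, w, hv, hv2, hw, hw2, rfl, rfl⟩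
  exact f6.imp (fun h => Subtype.ext h) (fun h => Subtype.ext h)

theorem exists_ns_mult (S : EvS A) (h2 : (2 : F) ≠ 0) : ∃ g : (fam A).N, sqc F (muN A g) = -1 := by
  obtain ⟨c, hc⟩ := sqc_surj h2
  obtain ⟨g, hg⟩ := S.mul c
  exact ⟨g, by rw [hg, hc]⟩

theorem dih (S : EvS A) (h2 : (2 : F) ≠ 0) (hneg : negO A ∈ Cfsg.Omega F ⇑A.Q) :
    Nonempty (DihedralGroup 4 ≃* MO A) := by
  classical
  obtain ⟨g, hg⟩ := exists_ns_mult S h2
  obtain ⟨a, b, d, e1, e2, e3, e4, e5, e6, -⟩ := swap S h2 hneg g hg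
  refine Dih.dihedral_swap ?_ e1 e2 e3 e4 e5 e6
  rw [card_MO, relIndex_even S h2, if_pos hneg]

end Ev

section Minus

variable {F : Type*} [Field F] [Finite F] {a b : F} {K : Type*} [Field K] [Finite K] (X : QX F a b K) {m : ℕ}
  (hab : ∀ z₁ z₂ : F, z₁ ^ 2 + a * z₁ * z₂ + b * z₂ ^ 2 = 0 → z₁ = 0 ∧ z₂ = 0) (hm : 3 ≤ m)

/-- the parity structure in minus type. -/
noncomputable def evM : EvS (odM hab hm) where
  E := EK X hab hm
  scl := EK_scl X hab hm
  iso := EK_iso X hab hm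
  mul := mult_of_even (odM hab hm) (minus_card m)
  even := ⟨m + 1, by rw [minus_card]; ring⟩

theorem card_K {K : Type*} [Field K] [Finite K] (X : QX F a b K)
    (hab : ∀ z₁ z₂ : F, z₁ ^ 2 + a * z₁ * z₂ + b * z₂ ^ 2 = 0 → z₁ = 0 ∧ z₂ = 0) : Nat.card K = Nat.card F ^ 2 := by
  have h1 : Nat.card K = Nat.card (F × F) := by
    symm
    refine Nat.card_congr (Equiv.ofBijective (fun p : F × F => X.e p.1 + X.e p.2 * X.ω) ⟨?_, ?_⟩)
    · rintro ⟨x, y⟩ ⟨x', y'⟩ h
      change X.e x + X.e y * X.ω = X.e x' + X.e y' * X.ω at h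
      have h2 := congrArg X.τ h
      simp only [map_add, map_mul, X.hτ] at h2
      have h3 : (X.e y - X.e y') * (X.τ X.ω - X.ω) = 0 := by linear_combination h2 - h
      have h4 := (mul_eq_zero.mp h3).resolve_right (sub_ne_zero.mpr X.hne)
      have h5 : y = y' := X.e.injective (sub_eq_zero.mp h4)
      subst h5
      have h6 : x = x' := X.e.injective (add_right_cancel h)
      rw [h6]
    · intro z
      obtain ⟨x, y, h⟩ := X.span z
      exact ⟨(x, y), h.symm⟩
  rw [h1, Nat.card_prod, sq]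

end Minus

section Final

variable {F : Type*} [Field F] [Fintype F] {a b : F} {m : ℕ}
  (hab : ∀ z₁ z₂ : F, z₁ ^ 2 + a * z₁ * z₂ + b * z₂ ^ 2 = 0 → z₁ = 0 ∧ z₂ = 0) (hm : 3 ≤ m)
  {q : ((Fin m ⊕ Fin m) ⊕ Fin 2 → F) → F} (hq : ⇑(odM hab hm).Q = q)

include hq

theorem out_minus_even {f : ℕ} (hf : 1 ≤ f) (hF : Fintype.card F = 2 ^ f) :
    IsCyclic (Cfsg.Out (Cfsg.POmega F q)) ∧ Nat.card (Cfsg.Out (Cfsg.POmega F q)) = 2 * f := by
  subst hq
  have hp2 : Fact (Nat.Prime 2) := ⟨Nat.prime_two⟩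
  have h2 : (2 : F) = 0 := (two_iff_char (p := 2) hf hF).mpr rfl
  obtain ⟨K, iK, iA, hK⟩ := exists_K hab
  obtain ⟨X, -⟩ := exists_QX hab K hK
  have hKf : Finite K := by
    have : Module.Finite F K := Module.finite_of_finrank_pos (by omega)
    exact Module.finite_of_finite F
  obtain ⟨S, hS⟩ := exists_Sigma X hab m
  have hfull := full (good_minus (F := F) hab hm)
  obtain ⟨φ, hφ, -⟩ := out_lift hfull S (fun x hx => Sigma_sc X hab hm hS hx) (fun s => Sigma_Om X hab hm hS s) (by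
    intro x hx
    obtain ⟨g, rfl, hg⟩ := (Sigma_ker X hab hm hS x).mp hx
    obtain ⟨d, u, rfl⟩ := sq_mult (odM hab hm) g (by
      rw [sqc_eq_one]
      exact Quad.isSquare_of_two_eq_zero h2 _)
    rw [_root_.map_mul, EK_scl, one_mul, EK_iso] at hg
    rw [_root_.map_mul, _root_.map_mul, T_scl, one_mul]
    exact so_inn (odM hab hm) ⟨m + 1, by rw [minus_card]; ring⟩ (Or.inl h2) hg)
  have hcyc : IsCyclic (K ≃+* K) := inferInstance
  refine ⟨isCyclic_of_injective φ hφ, ?_⟩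
  have h3 := card_out (odM hab hm)
  have h4 := card_aut_minus hab hm rfl (p := 2) hf hF
  rw [h4, if_pos rfl] at h3
  exact (Nat.eq_of_mul_eq_mul_right Nat.card_pos h3).symm

theorem neg_mod {q' : ℕ} (hF : Fintype.card F = q') (h2 : (2 : F) ≠ 0) : negO (odM hab hm) ∈ Cfsg.Omega F ⇑(odM hab hm).Q ↔
    q' % 4 = 3 ∧ Odd (m + 1) := by
  have h3 := Quad.card_mod_two h2
  rw [neg_minus hab hm h2]
  rcases Nat.even_or_odd (m + 1) with he | ho
  · rw [he.neg_one_pow]
    have : ¬ Odd (m + 1) := Nat.not_odd_iff_even.mpr he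
    simp [this]
  · rw [ho.neg_one_pow, FiniteField.isSquare_neg_one_iff, hF]
    simp [ho]

theorem out_minus_odd {p f : ℕ} [Fact p.Prime] (hf : 1 ≤ f) (hF : Fintype.card F = p ^ f) (hp : p ≠ 2) :
    if p ^ f % 4 = 3 ∧ Odd (m + 1) then
      Nonempty (Cfsg.Out (Cfsg.POmega F q) ≃* DihedralGroup 4 × Multiplicative (ZMod f))
    else Nonempty (Cfsg.Out (Cfsg.POmega F q) ≃* Multiplicative (ZMod 2 × ZMod (2 * f))) := by
  subst hq
  have h2 : (2 : F) ≠ 0 := fun h => hp ((two_iff_char hf hF).mp h)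
  obtain ⟨K, iK, iA, hK⟩ := exists_K hab
  obtain ⟨X, -⟩ := exists_QX hab K hK
  have hKf : Finite K := by
    have : Module.Finite F K := Module.finite_of_finrank_pos (by omega)
    exact Module.finite_of_finite F
  have hfull := full (good_minus (F := F) hab hm)
  have hmod := neg_mod hab hm rfl hF h2
  have hcF : Nat.card (F ≃+* F) = f := Cfsg.Agent.H16.FAut.card_ringAut (p := p)
    (by rw [Nat.card_eq_fintype_card, hF]) hf
  by_cases hc : p ^ f % 4 = 3 ∧ Odd (m + 1)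
  · rw [if_pos hc]
    have hneg := hmod.mpr hc
    obtain ⟨E⟩ := dih (evM X hab hm) h2 hneg
    have hfo : Odd f := by
      rcases Nat.even_or_odd f with he | ho
      · exfalso
        obtain ⟨k, rfl⟩ := he
        have h3 := hc.1
        have h6 : p ^ 2 % 4 = 1 := by
          obtain ⟨j, rfl⟩ := (Fact.out : p.Prime).odd_of_ne_two hp
          have : (2 * j + 1) ^ 2 = 4 * (j * j + j) + 1 := by ring
          rw [this]
          omega
        rw [← two_mul, pow_mul, Nat.pow_mod, h6, one_pow] at h3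
        norm_num at h3
      · exact ho
    obtain ⟨θ, h1, h3, -⟩ := Fam.exists_theta_gen hfull (semi_minus hab hm)
    obtain ⟨φ, e1, e2, -⟩ := GamT.out_gen (K := Cfsg.Inn (Cfsg.POmega F ⇑(odM hab hm).Q)) inferInstance
      (fam (odM hab hm)).inn_le_D θ h1 h3
    have eZ : (F ≃+* F) ≃* Multiplicative (ZMod f) := by
      rw [← hcF]
      exact (zmodCyclicMulEquiv inferInstance).symm
    have hker : (eZ.toMonoidHom.comp φ).ker = MO (odM hab hm) := by
      refine Eq.trans ?_ e2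
      ext x
      rw [MonoidHom.mem_ker, MonoidHom.mem_ker, MonoidHom.comp_apply]
      exact MulEquiv.map_eq_one_iff eZ
    exact Dih.prod_of_odd hfo (eZ.toMonoidHom.comp φ) (eZ.surjective.comp e1)
      (E.trans (MulEquiv.subgroupCongr hker.symm))
  · rw [if_neg hc]
    have hneg : negO (odM hab hm) ∉ Cfsg.Omega F ⇑(odM hab hm).Q := fun h => hc (hmod.mp h)
    obtain ⟨S, hS⟩ := exists_Sigma X hab m
    obtain ⟨φ, hφ, -⟩ := out_lift hfull ((msq (odM hab hm)).prod S)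
      (fun x hx => Prod.ext (msq_sc (odM hab hm) hx) (Sigma_sc X hab hm hS hx))
      (fun s => Prod.ext (msq_Om (odM hab hm) s) (Sigma_Om X hab hm hS s)) (by
      intro x hx
      have hx1 : msq (odM hab hm) x = 1 := congrArg Prod.fst hx
      have hx2 : S x = 1 := congrArg Prod.snd hx
      obtain ⟨g, rfl, hg⟩ := (Sigma_ker X hab hm hS x).mp hx2
      obtain ⟨d, u, rfl⟩ := sq_mult (odM hab hm) g hx1
      rw [_root_.map_mul, EK_scl, one_mul, EK_iso] at hg
      rw [_root_.map_mul, _root_.map_mul, T_scl, one_mul]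
      exact so_inn (odM hab hm) ⟨m + 1, by rw [minus_card]; ring⟩ (Or.inr hneg) hg)
    have hcK : Nat.card (K ≃+* K) = 2 * f := Cfsg.Agent.H16.FAut.card_ringAut (p := p)
      (by rw [card_K X hab, Nat.card_eq_fintype_card, hF, ← pow_mul, mul_comm]) (by omega)
    have h3 := card_out (odM hab hm)
    have h4 := card_aut_minus hab hm rfl (p := p) hf hF
    have h5 : Even ((m + 1) * (p ^ f - 1) / 2) := by
      rw [← Quad.isSquare_neg_one_pow_iff (F := F) hF (((Fact.out : p.Prime).odd_of_ne_two hp).pow) (m + 1)]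
      by_contra h
      exact hneg ((neg_minus hab hm h2).mpr h)
    rw [h4, if_neg hp, if_pos h5] at h3
    have h6 : Nat.card (Cfsg.Out (Cfsg.POmega F ⇑(odM hab hm).Q)) = 4 * f :=
      (Nat.eq_of_mul_eq_mul_right Nat.card_pos h3).symm
    have h7 : Nat.card (ℤˣ × (K ≃+* K)) = 4 * f := by
      rw [Nat.card_prod, hcK]
      simp [Nat.card_eq_fintype_card]
      ring
    have hfinp : Finite (ℤˣ × (K ≃+* K)) := inferInstance
    have hfinO : Finite (Cfsg.Out (Cfsg.POmega F ⇑(odM hab hm).Q)) := Finite.of_injective φ hφ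
    have hbij : Function.Bijective φ := (Nat.bijective_iff_injective_and_card φ).mpr ⟨hφ, by rw [h6]; exact h7.symm⟩
    have eZ : (K ≃+* K) ≃* Multiplicative (ZMod (2 * f)) := by
      rw [← hcK]
      exact (zmodCyclicMulEquiv inferInstance).symm
    have eU : ℤˣ ≃* Multiplicative (ZMod 2) :=
      mulEquivOfPrimeCardEq (p := 2) (by simp [Nat.card_eq_fintype_card]) (by simp [Nat.card_eq_fintype_card])
    exact ⟨(MulEquiv.ofBijective φ hbij).trans ((MulEquiv.prodCongr eU eZ).trans (MulEquiv.prodMultiplicative _ _).symm)⟩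

end Final

end Cfsg.Agent.H16.Par
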