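import Cfsg.Agent.H16_Par7
import Cfsg.Agent.H16_Lev

set_option autoImplicit false

/-! Inner-diagonal groups in even dimension. -/

namespace Cfsg.Agent.H16.Par

open Matrix Cfsg.Agent.H16.Ps Module Cfsg.Agent.H16.Gam Cfsg.Agent.H16.AutL Cfsg.Agent.H16.AutG Cfsg.Agent.H16.Desc
open QuadraticMap (polar)
open Cfsg.Agent.H16 Cfsg.Agent.H16.POm

section Gen

variable {ι : Type} [Fintype ι] [DecidableEq ι] {F : Type*} [Field F] [Finite F] {A : OD ι F}

/-- the inner-diagonal group. -/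
noncomputable def D0 (S : EvS A) : Subgroup (MulAut (Cfsg.POmega F ⇑A.Q)) := S.E.ker.map ((fam A).T.comp (fam A).nin)

theorem mem_D0 {S : EvS A} {α : MulAut (Cfsg.POmega F ⇑A.Q)} :
    α ∈ D0 S ↔ ∃ g : (fam A).N, S.E g = 1 ∧ (fam A).T ((fam A).nin g) = α := by
  constructor
  · rintro ⟨g, hg, rfl⟩
    exact ⟨g, hg, rfl⟩
  · rintro ⟨g, hg, rfl⟩
    exact ⟨g, hg, rfl⟩

theorem T_mem_D0 {S : EvS A} {g : (fam A).N} : (fam A).T ((fam A).nin g) ∈ D0 S ↔ S.E g = 1 := by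
  rw [mem_D0]
  constructor
  · rintro ⟨h, hh, e⟩
    have h1 : (fam A).T ((fam A).nin (h⁻¹ * g)) = 1 := by
      rw [_root_.map_mul, _root_.map_mul, _root_.map_inv, _root_.map_inv, e, inv_mul_cancel]
    obtain ⟨c, hc⟩ := (Fam.ker_nin _).mp h1
    have h2 : g = h * ⟨scl ι c, (fam A).sc c⟩ := by
      rw [← inv_mul_eq_iff_eq_mul]
      exact Subtype.ext hc
    rw [h2, _root_.map_mul, hh, S.scl, one_mul]
  · intro h
    exact ⟨g, h, rfl⟩

theorem D0_le (S : EvS A) : D0 S ≤ (fam A).D := by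
  rintro _ ⟨g, -, rfl⟩
  exact ⟨g, rfl⟩

theorem inn_le_D0 (S : EvS A) : Cfsg.Inn (Cfsg.POmega F ⇑A.Q) ≤ D0 S := by
  intro k hk
  obtain ⟨g, hg, rfl⟩ := inn_fO A k hk
  rw [fO_eq, T_mem_D0, S.iso]
  exact ((mem_Om A g).mp hg).1

/-- the determinant formula. -/
def DetF (S : EvS A) (n : ℕ) : Prop :=
  (2 : F) ≠ 0 → ∀ g : (fam A).N, S.E g = 1 ↔ ((g : GL ι F) : Matrix ι ι F).det = ((muN A g : Fˣ) : F) ^ n

theorem del_one_iff (h2 : (2 : F) ≠ 0) (u : Cfsg.isometryGroup F ⇑A.Q) :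
    del A u = 1 ↔ ((u : GL ι F) : Matrix ι ι F).det = 1 := by
  rw [det_del]
  rcases Int.units_eq_one_or (del A u) with h | h
  · rw [h]; simp
  · rw [h]
    constructor
    · intro h1; exact absurd h1 (by decide)
    · intro h1
      exfalso
      apply h2
      have : (-1 : F) = 1 := by simpa using h1
      linear_combination -this

theorem det_scl (c : Fˣ) : ((scl ι c : GL ι F) : Matrix ι ι F).det = (c : F) ^ Fintype.card ι := by
  change (Matrix.scalar ι (c : F)).det = _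
  rw [Matrix.scalar_apply, Matrix.det_diagonal, Finset.prod_const, Finset.card_univ]

/-- two parity characters. -/
theorem E_eq_of {S S' : EvS A} {n : ℕ} (h : DetF S n) (h' : DetF S' n) (g : (fam A).N) : S.E g = S'.E g := by
  by_cases h2 : (2 : F) = 0
  · obtain ⟨d, u, rfl⟩ := sq_mult A g (by
      rw [sqc_eq_one]
      exact Quad.isSquare_of_two_eq_zero h2 _)
    rw [_root_.map_mul, _root_.map_mul, S.scl, S'.scl, S.iso, S'.iso]
  · have h3 := h h2 g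
    have h4 := h' h2 g
    rw [← h3] at h4
    rcases Int.units_eq_one_or (S.E g) with h5 | h5
    · rw [h5, h4.mpr h5]
    · rcases Int.units_eq_one_or (S'.E g) with h6 | h6
      · rw [h4.mp h6, h6]
      · rw [h5, h6]

/-- parity and determinants. -/
theorem parH_det {Q : QuadraticForm F (ι → F)} (hQ : (QuadraticMap.polarBilin Q).Nondegenerate)
    {U : Submodule F (ι → F)} (hU : Quad.IsMax Q U) (h2 : (2 : F) ≠ 0) (hne : Nat.card F ≠ 2 ∨ finrank F (ι → F) ≠ 4)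
    {G : GL ι F} {d : Fˣ} (hG : ∀ v, Q ((G : Matrix ι ι F) *ᵥ v) = (d : F) * d * Q v)
    (hm : (SemidirectProduct.inl G : Gm ι F) ∈ GamO ⇑Q) :
    parH hQ hU ⟨SemidirectProduct.inl G, hm⟩ = 1 ↔ (G : Matrix ι ι F).det = (d : F) ^ Fintype.card ι := by
  have hu : scl ι d⁻¹ * G ∈ Cfsg.isometryGroup F ⇑Q := by
    rw [Quad.mem_isometryGroup]
    intro v
    rw [PSp.coe_mul_mulVec, PSp.scl_mulVec, Quad.map_smul, hG, Units.val_inv_eq_inv_val]
    have := d.ne_zero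
    field_simp
  obtain ⟨vs, k1, k2, k3⟩ := Quad.iso_exists_list hQ hne ⟨_, hu⟩
  have h3 := parH_rpr hQ hU k1 k2
  have h4 := Quad.det_prod_refl k1
  rw [← k3] at h4
  have h5 : parH hQ hU ⟨SemidirectProduct.inl G, hm⟩ = (-1) ^ vs.length := by
    rw [← h3]
    have h6 := parH_scl hQ hU d⁻¹
    have h7 : (⟨SemidirectProduct.inl (scl ι d⁻¹ * G), iso_mem_Gam hu⟩ : GamO ⇑Q) =
        ⟨SemidirectProduct.inl (scl ι d⁻¹), sim_mem_Gam.mpr (scl_sim _ _)⟩ * ⟨SemidirectProduct.inl G, hm⟩ := by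
      apply Subtype.ext
      exact _root_.map_mul SemidirectProduct.inl _ _
    change _ = parH hQ hU ⟨SemidirectProduct.inl (scl ι d⁻¹ * G), iso_mem_Gam hu⟩
    rw [h7, _root_.map_mul, h6, one_mul]
  rw [h5]
  have h8 : ((scl ι d⁻¹ * G : GL ι F) : Matrix ι ι F).det = ((d : F) ^ Fintype.card ι)⁻¹ * (G : Matrix ι ι F).det := by
    rw [Units.val_mul, Matrix.det_mul, det_scl, Units.val_inv_eq_inv_val, inv_pow]
  have h9 : ((-1 : ℤˣ)) ^ vs.length = 1 ↔ ((-1 : F)) ^ vs.length = 1 := by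
    rcases Nat.even_or_odd vs.length with h | h
    · rw [h.neg_one_pow, h.neg_one_pow]; simp
    · rw [h.neg_one_pow, h.neg_one_pow]
      constructor
      · intro h'; exact absurd h' (by decide)
      · intro h'
        exfalso
        apply h2
        linear_combination -h'
  rw [h9, ← h4]
  change ((scl ι d⁻¹ * G : GL ι F) : Matrix ι ι F).det = 1 ↔ _
  rw [h8]
  have h11 : (d : F) ^ Fintype.card ι ≠ 0 := pow_ne_zero _ d.ne_zero
  rw [inv_mul_eq_one₀ h11]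
  exact eq_comm

theorem D0_normal (S : EvS A) (hA : (fam A).Full) (h : ∀ (x : (fam A).Γ) (g g' : (fam A).N),
    (fam A).nin g' = x * (fam A).nin g * x⁻¹ → S.E g' = S.E g) : (D0 S).Normal := by
  constructor
  intro α hα β
  obtain ⟨g, hg, rfl⟩ := mem_D0.mp hα
  obtain ⟨x, rfl⟩ := hA β
  obtain ⟨g', hg'⟩ := (fam A).nin_conj x g
  refine mem_D0.mpr ⟨g', ?_, ?_⟩
  · rw [h x g g' hg', hg]
  · rw [hg', _root_.map_mul, _root_.map_mul, _root_.map_inv]

end Gen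

section Plus

variable {F : Type*} [Field F] [Finite F] {m : ℕ} (hm : 4 ≤ m)

/-- parity in plus type. -/
noncomputable def parP (F : Type*) [Field F] [Finite F] (m : ℕ) : GamO ⇑(Quad.plusQ F m) →* ℤˣ :=
  parH (Quad.nd_plusQ m) (Quad.isMax_U0 m)

theorem plus_card (m : ℕ) : Fintype.card (Fin m ⊕ Fin m) = 2 * m := by
  simp only [Fintype.card_sum, Fintype.card_fin]; ring

/-- the parity structure in plus type. -/
noncomputable def evP : EvS (odP F hm) where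
  E := (parP F m).comp (fam (odP F hm)).nin
  scl c := parH_scl (Quad.nd_plusQ m) (Quad.isMax_U0 m) c
  iso u := by
    obtain ⟨vs, h1, h2⟩ := exists_vs (odP F hm) u
    rw [(dt_rpr (odP F hm) h1 h2).1]
    exact parH_rpr (Quad.nd_plusQ m) (Quad.isMax_U0 m) h1 h2
  mul := mult_of_even (odP F hm) (n := m - 1) (by rw [plus_card]; omega)
  even := ⟨m, by rw [plus_card]; ring⟩

/-- parity on the semisimilarity group. -/
noncomputable def parG : (fam (odP F hm)).Γ →* ℤˣ := parP F m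

theorem evP_E (g : (fam (odP F hm)).N) : (evP hm).E g = parG hm ((fam (odP F hm)).nin g) := rfl

/-- the diagonal similarity. -/
def dgE (m : ℕ) (c : Fˣ) : GL (Fin m ⊕ Fin m) F where
  val := Matrix.diagonal (Sum.elim (fun _ => (c : F)) fun _ => 1)
  inv := Matrix.diagonal (Sum.elim (fun _ => ((c⁻¹ : Fˣ) : F)) fun _ => 1)
  val_inv := by
    rw [Matrix.diagonal_mul_diagonal, ← Matrix.diagonal_one]
    congr 1
    funext i
    rcases i with i | i <;> simp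
  inv_val := by
    rw [Matrix.diagonal_mul_diagonal, ← Matrix.diagonal_one]
    congr 1
    funext i
    rcases i with i | i <;> simp

theorem dgE_mulVec (c : Fˣ) (v : Fin m ⊕ Fin m → F) : ((dgE m c : GL (Fin m ⊕ Fin m) F) : Matrix (Fin m ⊕ Fin m) (Fin m ⊕ Fin m) F) *ᵥ v =
    Sum.elim (fun i => (c : F) * v (Sum.inl i)) fun i => v (Sum.inr i) := by
  funext i
  change (Matrix.diagonal (Sum.elim (fun _ => (c : F)) fun _ => 1) *ᵥ v) i = _
  rw [Matrix.mulVec_diagonal]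
  rcases i with i | i <;> simp

theorem dgE_mult (c : Fˣ) (v : Fin m ⊕ Fin m → F) :
    Quad.plusQ F m (((dgE m c : GL (Fin m ⊕ Fin m) F) : Matrix (Fin m ⊕ Fin m) (Fin m ⊕ Fin m) F) *ᵥ v) = (c : F) * Quad.plusQ F m v := by
  rw [dgE_mulVec, Quad.plusQ_apply, Quad.plusQ_apply, Cfsg.quadFormPlus, Cfsg.quadFormPlus, Finset.mul_sum]
  apply Finset.sum_congr rfl
  intro i _
  simp only [Sum.elim_inl, Sum.elim_inr]
  ring

theorem dgE_mem (c : Fˣ) : dgE m c ∈ (fam (odP F hm)).N := sim_mem_Gam.mpr ⟨c, dgE_mult c⟩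

theorem dgE_det (c : Fˣ) : ((dgE m c : GL (Fin m ⊕ Fin m) F) : Matrix (Fin m ⊕ Fin m) (Fin m ⊕ Fin m) F).det = (c : F) ^ m := by
  change (Matrix.diagonal (Sum.elim (fun _ => (c : F)) fun _ => 1)).det = _
  rw [Matrix.det_diagonal, Fintype.prod_sum_type]
  simp

theorem dgE_E (c : Fˣ) : (evP hm).E ⟨dgE m c, dgE_mem hm c⟩ = 1 := by
  change pr (Quad.U0 F m) (im (SemidirectProduct.inl (dgE m c)) (Quad.U0 F m)) = 1
  have h1 : im (SemidirectProduct.inl (dgE m c)) (Quad.U0 F m) = Quad.U0 F m := by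
    ext w
    obtain ⟨v, rfl⟩ : ∃ v, w = sl (SemidirectProduct.inl (dgE m c)) v := ⟨_, (sl_sl_inv _ _).symm⟩
    rw [sl_mem_im, sl_inl, dgE_mulVec, Quad.mem_U0, Quad.mem_U0]
    rfl
  rw [h1, pr_self]

theorem detF_plus : DetF (evP (F := F) hm) m := by
  intro h2 g
  set c := muN (odP F hm) g with hc
  have h1 : muN (odP F hm) (⟨dgE m c, dgE_mem hm c⟩⁻¹ * g) = 1 := by
    rw [_root_.map_mul, _root_.map_inv, ← hc, inv_mul_eq_one]
    exact muN_eq (odP F hm) (dgE_mult c)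
  let u : Cfsg.isometryGroup F ⇑(odP F hm).Q := ⟨_, (muN_ker (odP F hm) _).mp h1⟩
  have h3 : g = ⟨dgE m c, dgE_mem hm c⟩ * ⟨u, iso_le_N (odP F hm) u.2⟩ := by
    apply Subtype.ext
    change (g : GL _ F) = dgE m c * ((dgE m c)⁻¹ * (g : GL _ F))
    rw [mul_inv_cancel_left]
  have h4 : (evP hm).E g = del (odP F hm) u := by
    rw [h3, _root_.map_mul, dgE_E, one_mul, (evP hm).iso]
  have h5 : ((g : GL (Fin m ⊕ Fin m) F) : Matrix (Fin m ⊕ Fin m) (Fin m ⊕ Fin m) F).det = (c : F) ^ m * ((u : GL (Fin m ⊕ Fin m) F) : Matrix (Fin m ⊕ Fin m) (Fin m ⊕ Fin m) F).det := by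
    have h6 := congrArg (fun x : (fam (odP F hm)).N => ((x : GL (Fin m ⊕ Fin m) F) : Matrix (Fin m ⊕ Fin m) (Fin m ⊕ Fin m) F).det) h3
    refine h6.trans ?_
    change (((dgE m c * (u : GL (Fin m ⊕ Fin m) F)) : GL (Fin m ⊕ Fin m) F) : Matrix (Fin m ⊕ Fin m) (Fin m ⊕ Fin m) F).det = _
    rw [Units.val_mul, Matrix.det_mul, dgE_det]
  rw [h4, del_one_iff h2, h5]
  have h7 : (c : F) ^ m ≠ 0 := pow_ne_zero _ c.ne_zero
  constructor
  · intro h; rw [h, mul_one]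
  · intro h; exact (mul_eq_left₀ h7).mp h

/-- the inner-diagonal group over a variable form. -/
def indP {F : Type*} [Field F] {m : ℕ} (q : (Fin m ⊕ Fin m → F) → F) : Subgroup (MulAut (Cfsg.POmega F q)) :=
  Cfsg.autSubgroupOf fun β => ∃ g : GL (Fin m ⊕ Fin m) F, g ∈ Cfsg.Geo.quadSimilarityGroup (F := F) q ∧
    Cfsg.PreservesSingularClasses q (g : Matrix (Fin m ⊕ Fin m) (Fin m ⊕ Fin m) F) ∧
    Cfsg.IsInducedBySemilinearPOmega q g (RingEquiv.refl F) β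

theorem indP_eq' {F : Type*} [Field F] {m : ℕ} : indP (Cfsg.quadFormPlus m F) = Cfsg.inndiagPOmegaPlus m F := rfl

theorem indP_eq : indP ⇑(odP F hm).Q = D0 (evP hm) := by
  have h : {β : MulAut (Cfsg.POmega F ⇑(odP F hm).Q) | ∃ g : GL (Fin m ⊕ Fin m) F,
      g ∈ Cfsg.Geo.quadSimilarityGroup (F := F) ⇑(odP F hm).Q ∧
      Cfsg.PreservesSingularClasses ⇑(odP F hm).Q (g : Matrix (Fin m ⊕ Fin m) (Fin m ⊕ Fin m) F) ∧
      Cfsg.IsInducedBySemilinearPOmega ⇑(odP F hm).Q g (RingEquiv.refl F) β} =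
      (D0 (evP (F := F) hm) : Set (MulAut (Cfsg.POmega F ⇑(odP F hm).Q))) := by
    ext β
    constructor
    · rintro ⟨g, hg, hp, h⟩
      have hg' : (SemidirectProduct.inl g : Gm (Fin m ⊕ Fin m) F) ∈ GamO ⇑(odP F hm).Q := sim_mem_Gam.mpr hg
      have h1 := (induced_iff (odP F hm) (g := g) (σ := RingEquiv.refl F) hg').mp h
      refine mem_D0.mpr ⟨⟨g, hg'⟩, ?_, h1.symm⟩
      exact (preserves_iff (Quad.nd_plusQ m) (Quad.isMax_U0 m) hg').mp hp
    · intro h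
      obtain ⟨g, hg, rfl⟩ := mem_D0.mp h
      refine ⟨g, sim_mem_Gam.mp g.2, ?_, ?_⟩
      · exact (preserves_iff (Quad.nd_plusQ m) (Quad.isMax_U0 m) g.2).mpr hg
      · exact (induced_iff (odP F hm) (g := g) (σ := RingEquiv.refl F) g.2).mpr rfl
  rw [indP, Cfsg.autSubgroupOf]
  rw [h, Subgroup.closure_eq]

/-- conjugation invariance. -/
theorem evP_conj (x : (fam (odP F hm)).Γ) (g g' : (fam (odP F hm)).N)
    (h : (fam (odP F hm)).nin g' = x * (fam (odP F hm)).nin g * x⁻¹) : (evP hm).E g' = (evP hm).E g := by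
  rw [evP_E, evP_E, h, _root_.map_mul, _root_.map_mul, _root_.map_inv, mul_comm (parG hm x), mul_inv_cancel_right]

end Plus

section Minus

variable {F : Type*} [Field F] [Finite F] {a b : F} {K : Type*} [Field K] [Finite K] (X : QX F a b K) {m : ℕ}
  (hab : ∀ z₁ z₂ : F, z₁ ^ 2 + a * z₁ * z₂ + b * z₂ ^ 2 = 0 → z₁ = 0 ∧ z₂ = 0) (hm : 3 ≤ m)

omit [Finite F] [Finite K] in
theorem orderOf_tau : orderOf X.τ = 2 := by
  apply orderOf_eq_prime
  · rcases X.unique (ρ₁ := 1) (ρ₂ := X.τ ^ 2) (fun y => by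
      rw [pow_two, RingAut.mul_apply, X.hτ, X.hτ]; rfl) with h | h
    · exact h
    · rw [one_mul, pow_two, mul_eq_left] at h
      exact absurd (by rw [h]; rfl) X.hne
  · intro h
    exact absurd (by rw [h]; rfl) X.hne

theorem detF_minus : DetF (evM X hab hm) (m + 1) := by
  intro h2 g
  have h2K : (2 : K) ≠ 0 := by
    intro h
    apply h2
    apply X.e.injective
    rw [map_ofNat, h, map_zero]
  set c := muN (odM hab hm) g with hc
  obtain ⟨d, hd⟩ := isSquare_of_fix h2K (orderOf_tau X) (X.hτ (c : F))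
  have hd0 : d ≠ 0 := by
    rintro rfl
    rw [mul_zero] at hd
    exact c.ne_zero ((map_eq_zero _).mp hd)
  have hG : ∀ w, QK X m (((Matrix.GeneralLinearGroup.map X.e (g : GL ((Fin m ⊕ Fin m) ⊕ Fin 2) F) :
      GL ((Fin m ⊕ Fin m) ⊕ Fin 2) K) : Matrix ((Fin m ⊕ Fin m) ⊕ Fin 2) ((Fin m ⊕ Fin m) ⊕ Fin 2) K) *ᵥ w) =
      ((Units.mk0 d hd0 : Kˣ) : K) * ((Units.mk0 d hd0 : Kˣ) : K) * QK X m w := by
    intro w
    rw [Units.val_mk0, ← hd]
    refine ext_rat X.e (Q₁ := (QK X m).comp (Matrix.mulVecLin (((Matrix.GeneralLinearGroup.map X.e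
      (g : GL ((Fin m ⊕ Fin m) ⊕ Fin 2) F) :
      GL ((Fin m ⊕ Fin m) ⊕ Fin 2) K) : Matrix ((Fin m ⊕ Fin m) ⊕ Fin 2) ((Fin m ⊕ Fin m) ⊕ Fin 2) K))))
      (Q₂ := X.e (c : F) • QK X m) (fun x => ?_) w
    rw [comp_gl, map_mulVec_coe]
    change _ = X.e (c : F) * QK X m (fun i => X.e (x i))
    rw [rat_QK, rat_QK, ← map_mul]
    congr 1
    exact muN_spec (odM hab hm) g x
  have hne : Nat.card K ≠ 2 ∨ finrank K ((Fin m ⊕ Fin m) ⊕ Fin 2 → K) ≠ 4 := by
    right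
    rw [finrank_minus]
    omega
  have h3 := parH_det (nd_QK X hab m) (isMax_UK m X.hω) h2K hne hG (upH X m (nu X hab hm g)).2
  have h4 : EK X hab hm g = parH (nd_QK X hab m) (isMax_UK m X.hω) ⟨SemidirectProduct.inl
    (Matrix.GeneralLinearGroup.map X.e (g : GL ((Fin m ⊕ Fin m) ⊕ Fin 2) F)), (upH X m (nu X hab hm g)).2⟩ := rfl
  change EK X hab hm g = 1 ↔ _
  rw [h4, h3, minus_card, Units.val_mk0]
  have h8 : ((Matrix.GeneralLinearGroup.map X.e (g : GL ((Fin m ⊕ Fin m) ⊕ Fin 2) F) :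
      GL ((Fin m ⊕ Fin m) ⊕ Fin 2) K) : Matrix ((Fin m ⊕ Fin m) ⊕ Fin 2) ((Fin m ⊕ Fin m) ⊕ Fin 2) K).det =
      X.e ((g : GL ((Fin m ⊕ Fin m) ⊕ Fin 2) F) :
        Matrix ((Fin m ⊕ Fin m) ⊕ Fin 2) ((Fin m ⊕ Fin m) ⊕ Fin 2) F).det := (X.e.map_det _).symm
  have h10 : d ^ (2 * m + 2) = X.e ((c : F) ^ (m + 1)) := by
    rw [map_pow, hd]; ring
  rw [h8, h10]
  exact X.e.injective.eq_iff

/-- the inner-diagonal group over a variable form. -/
def indM {F : Type*} [Field F] {m : ℕ} (a b : F) (q : ((Fin m ⊕ Fin m) ⊕ Fin 2 → F) → F) :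
    Subgroup (MulAut (Cfsg.POmega F q)) :=
  Cfsg.autSubgroupOf fun β => ∃ g : GL ((Fin m ⊕ Fin m) ⊕ Fin 2) F, g ∈ Cfsg.Geo.quadSimilarityGroup (F := F) q ∧
    Cfsg.PreservesSingularClassesMinus m a b (g : Matrix ((Fin m ⊕ Fin m) ⊕ Fin 2) ((Fin m ⊕ Fin m) ⊕ Fin 2) F) ∧
    Cfsg.IsInducedBySemilinearPOmega q g (RingEquiv.refl F) β

theorem indM_eq' {F : Type*} [Field F] {m : ℕ} (a b : F) :
    indM a b (Cfsg.quadFormMinus m F a b) = Cfsg.inndiagPOmegaMinus m F a b := rfl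

theorem presM_iff {g : GL ((Fin m ⊕ Fin m) ⊕ Fin 2) F} (hg : g ∈ (fam (odM hab hm)).N) :
    Cfsg.PreservesSingularClasses (Cfsg.quadFormMinus m K (X.e a) (X.e b))
      ((g : Matrix ((Fin m ⊕ Fin m) ⊕ Fin 2) ((Fin m ⊕ Fin m) ⊕ Fin 2) F).map X.e) ↔ EK X hab hm ⟨g, hg⟩ = 1 := by
  rw [← Quad.coe_minusQ]
  exact preserves_iff (nd_QK X hab m) (isMax_UK m X.hω) (g := Matrix.GeneralLinearGroup.map X.e g)
    (upH X m (nu X hab hm ⟨g, hg⟩)).2

/-- conjugation invariance. -/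
theorem EK_conj (x : (fam (odM hab hm)).Γ) (g g' : (fam (odM hab hm)).N)
    (h : (fam (odM hab hm)).nin g' = x * (fam (odM hab hm)).nin g * x⁻¹) : EK X hab hm g' = EK X hab hm g := by
  obtain ⟨ρ, hρ⟩ := ext_sigma X.e (x : Gm ((Fin m ⊕ Fin m) ⊕ Fin 2) F).right
  have h1 : (x, ρ) ∈ GH X m := hρ
  have h2 : nu X hab hm g' = ⟨(x, ρ), h1⟩ * nu X hab hm g * ⟨(x, ρ), h1⟩⁻¹ := by
    apply Subtype.ext
    refine Prod.ext ?_ ?_
    · exact h
    · change (1 : K ≃+* K) = ρ * 1 * ρ⁻¹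
      rw [mul_one, mul_inv_cancel]
  rw [EK_apply, EK_apply, h2, _root_.map_mul, _root_.map_mul, _root_.map_mul, _root_.map_mul, _root_.map_inv,
    _root_.map_inv, mul_comm (parK X hab m (upH X m ⟨(x, ρ), h1⟩)), mul_inv_cancel_right]

end Minus

section Minus2

universe u

variable {F : Type u} [Field F] [Finite F] {a b : F} {K : Type*} [Field K] [Finite K] (X : QX F a b K) {m : ℕ}
  (hab : ∀ z₁ z₂ : F, z₁ ^ 2 + a * z₁ * z₂ + b * z₂ ^ 2 = 0 → z₁ = 0 ∧ z₂ = 0) (hm : 3 ≤ m)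

theorem indM_eq : indM a b ⇑(odM hab hm).Q = D0 (evM X hab hm) := by
  have h : {β : MulAut (Cfsg.POmega F ⇑(odM hab hm).Q) | ∃ g : GL ((Fin m ⊕ Fin m) ⊕ Fin 2) F,
      g ∈ Cfsg.Geo.quadSimilarityGroup (F := F) ⇑(odM hab hm).Q ∧
      Cfsg.PreservesSingularClassesMinus m a b (g : Matrix ((Fin m ⊕ Fin m) ⊕ Fin 2) ((Fin m ⊕ Fin m) ⊕ Fin 2) F) ∧
      Cfsg.IsInducedBySemilinearPOmega ⇑(odM hab hm).Q g (RingEquiv.refl F) β} =
      (D0 (evM X hab hm) : Set (MulAut (Cfsg.POmega F ⇑(odM hab hm).Q))) := by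
    ext β
    constructor
    · rintro ⟨g, hg, ⟨L, iL, aL, hL, hp⟩, h⟩
      have hg' : (SemidirectProduct.inl g : Gm ((Fin m ⊕ Fin m) ⊕ Fin 2) F) ∈ GamO ⇑(odM hab hm).Q := sim_mem_Gam.mpr hg
      have h1 := (induced_iff (odM hab hm) (g := g) (σ := RingEquiv.refl F) hg').mp h
      have hLf : Finite L := by
        have : Module.Finite F L := Module.finite_of_finrank_pos (by omega)
        exact Module.finite_of_finite F
      obtain ⟨Y, hY⟩ := exists_QX hab L hL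
      rw [← hY] at hp
      have h2 : EK Y hab hm ⟨g, hg'⟩ = 1 := (presM_iff Y hab hm hg').mp hp
      refine mem_D0.mpr ⟨⟨g, hg'⟩, ?_, h1.symm⟩
      rw [E_eq_of (detF_minus X hab hm) (detF_minus Y hab hm)]
      exact h2
    · intro h
      obtain ⟨g, hg, rfl⟩ := mem_D0.mp h
      obtain ⟨L, iL, aL, hL⟩ := exists_K hab
      have hLf : Finite L := by
        have : Module.Finite F L := Module.finite_of_finrank_pos (by omega)
        exact Module.finite_of_finite F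
      obtain ⟨Y, hY⟩ := exists_QX hab L hL
      refine ⟨g, sim_mem_Gam.mp g.2, ⟨L, iL, aL, hL, ?_⟩, ?_⟩
      · rw [← hY]
        apply (presM_iff Y hab hm g.2).mpr
        rw [E_eq_of (detF_minus X hab hm) (detF_minus Y hab hm)] at hg
        exact hg
      · exact (induced_iff (odM hab hm) (g := g) (σ := RingEquiv.refl F) g.2).mpr rfl
  rw [indM, Cfsg.autSubgroupOf]
  rw [h, Subgroup.closure_eq]

end Minus2

end Cfsg.Agent.H16.Par
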