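import Cfsg.Agent.H16_Par8

set_option autoImplicit false

/-! Rational structures attached to semisimilarities of finite order. -/

namespace Cfsg.Agent.H16.Par

open Matrix Cfsg.Agent.H16.Ps Module Cfsg.Agent.H16.Gam Cfsg.Agent.H16.AutL Cfsg.Agent.H16.AutG Cfsg.Agent.H16.Desc
open QuadraticMap (polar)
open Cfsg.Agent.H16 Cfsg.Agent.H16.POm

section Ext

variable {ι₀ ι : Type} [Fintype ι₀] [DecidableEq ι₀] [Fintype ι] [DecidableEq ι] {F K : Type*} [Field F] [Field K]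

theorem ext_lin (e : K →+* F) (φ : (ι₀ → K) ≃ₗ[K] (ι → K)) : ∃ L : (ι₀ → F) ≃ₗ[F] (ι → F),
    (∀ x, L (fun i => e (x i)) = fun i => e (φ x i)) ∧
    ∀ σ : F ≃+* F, (∀ y, σ (e y) = e y) → ∀ v, L (fun i => σ (v i)) = fun i => σ (L v i) := by
  set M : Matrix ι ι₀ K := LinearMap.toMatrix' φ.toLinearMap with hM
  set M' : Matrix ι₀ ι K := LinearMap.toMatrix' φ.symm.toLinearMap with hM'
  have h1 : M * M' = 1 := by
    rw [hM, hM', ← LinearMap.toMatrix'_comp]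
    have : φ.toLinearMap ∘ₗ φ.symm.toLinearMap = LinearMap.id := by ext x; simp
    rw [this, LinearMap.toMatrix'_id]
  have h2 : M' * M = 1 := by
    rw [hM, hM', ← LinearMap.toMatrix'_comp]
    have : φ.symm.toLinearMap ∘ₗ φ.toLinearMap = LinearMap.id := by ext x; simp
    rw [this, LinearMap.toMatrix'_id]
  have h3 : M.map e * M'.map e = 1 := by
    rw [← Matrix.map_mul, h1, Matrix.map_one _ (_root_.map_zero e) (_root_.map_one e)]
  have h4 : M'.map e * M.map e = 1 := by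
    rw [← Matrix.map_mul, h2, Matrix.map_one _ (_root_.map_zero e) (_root_.map_one e)]
  let L : (ι₀ → F) ≃ₗ[F] (ι → F) := Matrix.toLin'OfInv h4 h3
  have hL : ∀ v, L v = (M.map e) *ᵥ v := fun v => rfl
  refine ⟨L, fun x => ?_, fun σ hσ v => ?_⟩
  · rw [hL]
    have h5 : M *ᵥ x = φ x := LinearMap.toMatrix'_mulVec φ.toLinearMap x
    rw [← h5]
    funext i
    simp only [Matrix.mulVec, dotProduct, map_sum, map_mul, Matrix.map_apply]
  · rw [hL, hL]
    funext i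
    simp only [Matrix.mulVec, dotProduct, map_sum, map_mul, Matrix.map_apply, hσ]

/-- conjugation by a linear map. -/
noncomputable def cj (L : (ι₀ → F) ≃ₗ[F] (ι → F)) : GL ι₀ F →* GL ι F where
  toFun g := (Quad.glE F ι).symm ((L.symm.trans (Quad.glE F ι₀ g)).trans L)
  map_one' := by
    rw [_root_.map_one]
    have : (L.symm.trans (1 : (ι₀ → F) ≃ₗ[F] (ι₀ → F))).trans L = 1 := by
      ext x
      simp
    rw [this, _root_.map_one]
  map_mul' g h := by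
    rw [← _root_.map_mul (Quad.glE F ι).symm, _root_.map_mul (Quad.glE F ι₀)]
    congr 1
    ext x
    simp

theorem cj_mulVec (L : (ι₀ → F) ≃ₗ[F] (ι → F)) (g : GL ι₀ F) (v : ι₀ → F) :
    ((cj L g : GL ι F) : Matrix ι ι F) *ᵥ (L v) = L ((g : Matrix ι₀ ι₀ F) *ᵥ v) := by
  change (((Quad.glE F ι).symm ((L.symm.trans (Quad.glE F ι₀ g)).trans L) : GL ι F) : Matrix ι ι F) *ᵥ (L v) = _
  rw [glE_symm]
  simp [Quad.glE_apply]

theorem gl_ext' {g h : GL ι F} (L : (ι₀ → F) ≃ₗ[F] (ι → F))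
    (H : ∀ v, (g : Matrix ι ι F) *ᵥ (L v) = (h : Matrix ι ι F) *ᵥ (L v)) : g = h := by
  apply PSp.gl_ext
  intro v
  have := H (L.symm v)
  rwa [LinearEquiv.apply_symm_apply] at this

theorem cj_surj (L : (ι₀ → F) ≃ₗ[F] (ι → F)) : Function.Surjective (cj L) := by
  intro g
  refine ⟨cj L.symm g, gl_ext' L fun v => ?_⟩
  rw [cj_mulVec]
  have h := cj_mulVec L.symm g (L v)
  rw [LinearEquiv.symm_apply_apply] at h
  rw [h, LinearEquiv.apply_symm_apply]

theorem cj_scl (L : (ι₀ → F) ≃ₗ[F] (ι → F)) (c : Fˣ) : cj L (scl ι₀ c) = scl ι c := by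
  apply gl_ext' L
  intro v
  rw [cj_mulVec, PSp.scl_mulVec, PSp.scl_mulVec, _root_.map_smul]

theorem cj_inj (L : (ι₀ → F) ≃ₗ[F] (ι → F)) : Function.Injective (cj L) := by
  intro g h hgh
  apply PSp.gl_ext
  intro v
  apply L.injective
  rw [← cj_mulVec, ← cj_mulVec, hgh]

theorem cj_det (L : (ι₀ → F) ≃ₗ[F] (ι → F)) (g : GL ι₀ F) :
    ((cj L g : GL ι F) : Matrix ι ι F).det = (g : Matrix ι₀ ι₀ F).det := by
  have h1 : Matrix.toLin' ((cj L g : GL ι F) : Matrix ι ι F) = (L : (ι₀ → F) →ₗ[F] (ι → F)) ∘ₗ Matrix.toLin' (g : Matrix ι₀ ι₀ F) ∘ₗ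
      (L.symm : (ι → F) →ₗ[F] (ι₀ → F)) := by
    apply LinearMap.ext
    intro v
    obtain ⟨w, rfl⟩ := L.surjective v
    simp only [Matrix.toLin'_apply, LinearMap.comp_apply, LinearEquiv.coe_coe, LinearEquiv.symm_apply_apply]
    exact cj_mulVec L g w
  rw [← LinearMap.det_toLin', h1, LinearMap.det_conj, LinearMap.det_toLin']

end Ext

section RS

variable {ι₀ ι : Type} [Fintype ι₀] [DecidableEq ι₀] [Fintype ι] [DecidableEq ι] {F : Type*} [Field F] [Finite F]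

theorem gm_ext {x y : Gm ι F} (h : x.right = y.right) (H : ∀ v, sl x v = sl y v) : x = y := by
  have h1 : x * y⁻¹ = SemidirectProduct.inl (x * y⁻¹).left := by
    apply SemidirectProduct.ext
    · rfl
    · change (x * y⁻¹).right = 1
      rw [SemidirectProduct.mul_right, SemidirectProduct.inv_right, h, mul_inv_cancel]
  have h2 : (x * y⁻¹).left = 1 := by
    apply PSp.gl_ext
    intro v
    rw [← sl_inl, ← h1, Units.val_one, one_mulVec, sl_mul, H, sl_sl_inv]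
  rw [← mul_inv_eq_one, h1, h2, _root_.map_one]

/-- a rational structure. -/
structure RS (A : OD ι F) (ξ : Gm ι F) (Q₁ : QuadraticForm F (ι₀ → F)) where
  L : (ι₀ → F) ≃ₗ[F] (ι → F)
  l : Fˣ
  hL : ∀ v, A.Q (L v) = l * Q₁ v
  hξ : ∀ v, sl ξ (L v) = L (fun i => ξ.right (v i))

variable {A : OD ι F} {ξ ξ' : Gm ι F} {Q₁ : QuadraticForm F (ι₀ → F)}

theorem RS.hp (R : RS A ξ Q₁) (v w : ι₀ → F) : polar A.Q (R.L v) (R.L w) = R.l * polar Q₁ v w := by
  rw [polar, polar, ← map_add, R.hL, R.hL, R.hL]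
  ring

theorem sl_polar {x : Gm ι F} {c : Fˣ} (h : ∀ v, A.Q (sl x v) = (c : F) * x.right (A.Q v)) (v w : ι → F) :
    polar A.Q (sl x v) (sl x w) = (c : F) * x.right (polar A.Q v w) := by
  rw [polar, polar, ← sl_add, h, h, h, map_sub, map_sub]
  ring

/-- conjugating a reflection by a semisimilarity. -/
theorem conj_refl_semi {x : Gm ι F} (hx : x ∈ GamO ⇑A.Q) (w : ι → F) :
    x * SemidirectProduct.inl (rfl' A w : GL ι F) * x⁻¹ = SemidirectProduct.inl (rfl' A (sl x w) : GL ι F) := by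
  obtain ⟨c, hc⟩ := hx
  have hc' : ∀ v, A.Q (sl x v) = (c : F) * x.right (A.Q v) := hc
  apply gm_ext
  · rw [SemidirectProduct.mul_right, SemidirectProduct.mul_right, SemidirectProduct.inv_right,
      SemidirectProduct.right_inl, SemidirectProduct.right_inl, mul_one, mul_inv_cancel]
  · intro v
    obtain ⟨u, rfl⟩ : ∃ u, v = sl x u := ⟨sl x⁻¹ v, (sl_sl_inv x v).symm⟩
    rw [sl_mul, sl_inv_sl, sl_mul, sl_inl, sl_inl, rfl'_mulVec, rfl'_mulVec, Quad.refl_apply, Quad.refl_apply,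
      sub_eq_add_neg, sl_add, ← neg_one_smul F, sl_smul, sl_smul, map_neg, map_one, neg_one_smul, ← sub_eq_add_neg]
    congr 2
    rw [sl_polar hc', hc', map_mul, map_inv₀]
    by_cases h5 : A.Q w = 0
    · rw [h5, map_zero, mul_zero, _root_.inv_zero, zero_mul, zero_mul]
    · have h6 : x.right (A.Q w) ≠ 0 := by rw [Ne, map_eq_zero]; exact h5
      have h7 := c.ne_zero
      field_simp

/-- conjugacy of semisimilarities with the same rational form. -/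
theorem RS.conj (S : EvS A) (hξ : ξ ∈ GamO ⇑A.Q) (hr : ξ.right = ξ'.right) (R : RS A ξ Q₁) (R' : RS A ξ' Q₁) {v₀ : ι₀ → F}
    (hv₀ : Q₁ v₀ ≠ 0) (hv : ∀ i, ξ.right (v₀ i) = v₀ i) :
    ∃ z : (fam A).N, S.E z = 1 ∧ SemidirectProduct.inl (z : GL ι F) * ξ * (SemidirectProduct.inl (z : GL ι F))⁻¹ = ξ' := by
  let z₁ : GL ι F := (Quad.glE F ι).symm (R.L.symm.trans R'.L)
  have hz₁ : ∀ v, (z₁ : Matrix ι ι F) *ᵥ (R.L v) = R'.L v := by
    intro v
    change (((Quad.glE F ι).symm (R.L.symm.trans R'.L) : GL ι F) : Matrix ι ι F) *ᵥ (R.L v) = _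
    rw [glE_symm]
    simp
  have hz₁N : z₁ ∈ (fam A).N := by
    refine sim_mem_Gam.mpr ⟨R'.l * R.l⁻¹, fun v => ?_⟩
    obtain ⟨w, rfl⟩ := R.L.surjective v
    change A.Q ((z₁ : Matrix ι ι F) *ᵥ (R.L w)) = _ * A.Q (R.L w)
    rw [hz₁, R.hL, R'.hL, Units.val_mul, Units.val_inv_eq_inv_val]
    have := R.l.ne_zero
    field_simp
  have hc1 : SemidirectProduct.inl z₁ * ξ = ξ' * SemidirectProduct.inl z₁ := by
    apply gm_ext
    · rw [SemidirectProduct.mul_right, SemidirectProduct.mul_right, SemidirectProduct.right_inl, mul_one, one_mul, hr]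
    · intro v
      obtain ⟨w, rfl⟩ := R.L.surjective v
      rw [sl_mul, sl_mul, R.hξ, sl_inl, sl_inl, hz₁, hz₁, R'.hξ, hr]
  -- the rational reflection
  have hw0 : A.Q (R.L v₀) ≠ 0 := by
    rw [R.hL]
    exact mul_ne_zero R.l.ne_zero hv₀
  have hc2 : ξ * SemidirectProduct.inl (rfl' A (R.L v₀) : GL ι F) = SemidirectProduct.inl (rfl' A (R.L v₀) : GL ι F) * ξ := by
    have h1 := conj_refl_semi hξ (R.L v₀)
    have h2 : sl ξ (R.L v₀) = R.L v₀ := by
      rw [R.hξ]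
      congr 1
      funext i
      exact hv i
    rw [h2, mul_inv_eq_iff_eq_mul] at h1
    exact h1
  rcases Int.units_eq_one_or (S.E ⟨z₁, hz₁N⟩) with h | h
  · refine ⟨⟨z₁, hz₁N⟩, h, ?_⟩
    rw [mul_inv_eq_iff_eq_mul]
    exact hc1
  · refine ⟨⟨z₁, hz₁N⟩ * ⟨rfl' A (R.L v₀), iso_le_N A (rfl' A (R.L v₀)).2⟩, ?_, ?_⟩
    · rw [_root_.map_mul, h, S.iso, del_rfl' hw0]
      rfl
    · rw [mul_inv_eq_iff_eq_mul]
      change SemidirectProduct.inl (z₁ * (rfl' A (R.L v₀) : GL ι F)) * ξ = ξ' * SemidirectProduct.inl (z₁ * (rfl' A (R.L v₀) : GL ι F))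
      rw [_root_.map_mul, mul_assoc, ← hc2, ← mul_assoc, hc1, mul_assoc]

/-- normalization. -/
theorem exists_nrm {S : Type*} [Group S] {Φ : Fam S ι F} [Nonempty ι] (x : Φ.Γ)
    (h : Φ.T x ^ orderOf (x : Gm ι F).right = 1) :
    ∃ t : Fˣ, Nn (x : Gm ι F).right (scl ι t * (x : Gm ι F).left) (orderOf (x : Gm ι F).right) = 1 := by
  obtain ⟨⟨g, σ⟩, hx⟩ := x
  change Φ.T ⟨⟨g, σ⟩, hx⟩ ^ orderOf σ = 1 at h
  change ∃ t : Fˣ, Nn σ (scl ι t * g) (orderOf σ) = 1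
  have hr0 : 0 < orderOf σ := orderOf_pos σ
  rw [← _root_.map_pow, Φ.T_eq_one_iff] at h
  obtain ⟨c, hc⟩ := h
  have h0 : (⟨g, σ⟩ : Gm ι F) = SemidirectProduct.inl g * SemidirectProduct.inr σ :=
    (SemidirectProduct.inl_left_mul_inr_right (⟨g, σ⟩ : Gm ι F)).symm
  have h1 : (((⟨⟨g, σ⟩, hx⟩ : Φ.Γ) ^ orderOf σ : Φ.Γ) : Gm ι F) = SemidirectProduct.inl (Nn σ g (orderOf σ)) := by
    rw [Subgroup.coe_pow]
    change (⟨g, σ⟩ : Gm ι F) ^ orderOf σ = _
    rw [h0, Fam.pow_eq, pow_orderOf_eq_one]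
    simp
  rw [h1] at hc
  have hc' := SemidirectProduct.inl_injective hc
  have hcf : σ (c : F) = c := by
    obtain ⟨s, hs⟩ : ∃ s, orderOf σ = s + 1 := ⟨orderOf σ - 1, by omega⟩
    have e1 := Nn_succ σ g (s + 1)
    have e0 : Nn σ g (s + 1) = scl ι c := by rw [← hs]; exact hc'
    rw [Nn_succ', e0, gσ_sc, ← hs, pow_orderOf_eq_one, gσ_one, sc_comm] at e1
    have e2 := mul_left_cancel e1
    exact (congrArg Units.val (sc_inj e2)).symm
  obtain ⟨x, hx⟩ := exists_norm_eq σ rfl hr0 c⁻¹ (by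
    have : ((c⁻¹ : Fˣ) : F) = (c : F)⁻¹ := by simp
    rw [this, map_inv₀, hcf])
  exact ⟨x, by rw [Nn_sc, hc', hx, ← _root_.map_mul, inv_mul_cancel, _root_.map_one]⟩

end RS

end Cfsg.Agent.H16.Par
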