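import Cfsg.Agent.H16_Par9

set_option autoImplicit false

/-! Types of the rational forms; conjugacy. -/

namespace Cfsg.Agent.H16.Par

open Matrix Cfsg.Agent.H16.Ps Module Cfsg.Agent.H16.Gam Cfsg.Agent.H16.AutL Cfsg.Agent.H16.AutG Cfsg.Agent.H16.Desc
open QuadraticMap (polar)
open Cfsg.Agent.H16 Cfsg.Agent.H16.POm

/-- anisotropic pairs. -/
abbrev An {F : Type*} [Field F] (a b : F) : Prop := ∀ z₁ z₂ : F, z₁ ^ 2 + a * z₁ * z₂ + b * z₂ ^ 2 = 0 → z₁ = 0 ∧ z₂ = 0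

theorem exists_an (F : Type*) [Field F] [Finite F] : ∃ ζ : F, An 1 ζ := by
  obtain ⟨ζ, hζ⟩ : ∃ ζ : F, ∀ t : F, t ^ 2 + t + ζ ≠ 0 := by
    have h1 : ¬ Function.Injective (fun t : F => -(t ^ 2 + t)) := by
      intro h
      have h2 : (0 : F) = -1 := h (by ring)
      have h3 : (1 : F) = 0 := by linear_combination h2
      exact one_ne_zero h3
    have h4 : ¬ Function.Surjective (fun t : F => -(t ^ 2 + t)) := fun h => h1 (Finite.injective_iff_surjective.mpr h)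
    rw [Function.Surjective] at h4
    push Not at h4
    obtain ⟨ζ, hζ⟩ := h4
    exact ⟨ζ, fun t ht => hζ t (by linear_combination -ht)⟩
  exact ⟨ζ, Quad.aniso_of_irred hζ⟩

/-- anisotropic over the fixed field. -/
def AnF {F : Type*} [Field F] (σ : F ≃+* F) (a b : F) : Prop := σ a = a ∧ σ b = b ∧
  ∀ z₁ z₂ : F, σ z₁ = z₁ → σ z₂ = z₂ → z₁ ^ 2 + a * z₁ * z₂ + b * z₂ ^ 2 = 0 → z₁ = 0 ∧ z₂ = 0

theorem anF_iff {F K : Type*} [Field F] [Field K] {σ : F ≃+* F} {e : K →+* F} (he : ∀ a, σ a = a ↔ a ∈ Set.range e) {a b : K} :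
    AnF σ (e a) (e b) ↔ An a b := by
  constructor
  · rintro ⟨-, -, h⟩ y₁ y₂ h0
    have h1 := h (e y₁) (e y₂) ((he _).mpr ⟨_, rfl⟩) ((he _).mpr ⟨_, rfl⟩) (by
      rw [← map_pow, ← map_pow, ← map_mul, ← map_mul, ← map_mul, ← map_add, ← map_add, h0, map_zero])
    exact ⟨(map_eq_zero e).mp h1.1, (map_eq_zero e).mp h1.2⟩
  · intro h
    refine ⟨(he _).mpr ⟨_, rfl⟩, (he _).mpr ⟨_, rfl⟩, ?_⟩
    intro z₁ z₂ hz₁ hz₂ h0
    obtain ⟨y₁, rfl⟩ := (he z₁).mp hz₁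
    obtain ⟨y₂, rfl⟩ := (he z₂).mp hz₂
    have h2 := h y₁ y₂ (e.injective (by rw [map_zero, ← h0]; simp only [map_add, map_mul, map_pow]))
    rw [h2.1, h2.2, map_zero]
    exact ⟨rfl, rfl⟩

section Forms

variable {ι₀ ι : Type} [Fintype ι₀] [DecidableEq ι₀] [Fintype ι] [DecidableEq ι] {F : Type*} [Field F] [Finite F]

omit [DecidableEq ι₀] [DecidableEq ι] [Finite F] in
theorem coe_sub {K : Subfield F} (x : ι → K) : (fun i => K.subtype (x i)) = fun i => ((x i : K) : F) := rfl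

theorem rs_of {A : OD ι F} {ξ : Gm ι F} {h : GL ι F} {l : Fˣ}
    {Q₀ : QuadraticForm (FixK ξ.right) (ι → FixK ξ.right)} (hh : ξ.left * gσ ξ.right h = h)
    (hQ₀ : ∀ x : ι → FixK ξ.right, ((Q₀ x : FixK ξ.right) : F) = ((l⁻¹ : Fˣ) : F) * A.Q ((h : Matrix ι ι F) *ᵥ fun i => (x i : F)))
    {R₀ : QuadraticForm (FixK ξ.right) (ι₀ → FixK ξ.right)} {R : QuadraticForm F (ι₀ → F)}
    (hR : ∀ x : ι₀ → FixK ξ.right, R (fun i => (x i : F)) = ((R₀ x : FixK ξ.right) : F))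
    {φ : (ι₀ → FixK ξ.right) ≃ₗ[FixK ξ.right] (ι → FixK ξ.right)} (hφ : ∀ v, Q₀ (φ v) = R₀ v) : Nonempty (RS A ξ R) := by
  obtain ⟨L', h1, h2⟩ := ext_lin (FixK ξ.right).subtype φ
  let L : (ι₀ → F) ≃ₗ[F] (ι → F) := L'.trans (Quad.glE F ι h)
  have hL : ∀ v, L v = (h : Matrix ι ι F) *ᵥ L' v := fun v => Quad.glE_apply h (L' v)
  refine ⟨⟨L, l, fun v => ?_, fun v => ?_⟩⟩
  · refine ext_rat (FixK ξ.right).subtype (Q₁ := A.Q.comp L.toLinearMap) (Q₂ := (l : F) • R) (fun x => ?_) v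
    change A.Q (L _) = (l : F) * R _
    rw [hL, h1]
    have h3 := hQ₀ (φ x)
    rw [hφ, ← hR] at h3
    change A.Q ((h : Matrix ι ι F) *ᵥ fun i => ((φ x i : FixK ξ.right) : F)) = (l : F) * R (fun i => (x i : F))
    rw [h3, ← mul_assoc, ← Units.val_mul, mul_inv_cancel, Units.val_one, one_mul]
  · rw [hL, hL, h2 ξ.right (fun y => y.2), sl]
    have h4 := map_mulVec' ξ.right h (L' v)
    rw [← h4, ← PSp.coe_mul_mulVec, hh]

theorem forms {A : OD ι F} {n : ℕ} (hn : Fintype.card ι = 2 * n + 2) {ξ : Gm ι F} (hξ : ξ ∈ GamO ⇑A.Q)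
    (hN : Nn ξ.right ξ.left (orderOf ξ.right) = 1) {K : Type*} [Field K] (e : K →+* F)
    (he : ∀ a, ξ.right a = a ↔ a ∈ Set.range e) :
    Nonempty (RS A ξ (Quad.plusQ F (n + 1))) ∨
      ∀ a₀ b₀ : K, An a₀ b₀ → Nonempty (RS A ξ (Quad.minusQ F n (e a₀) (e b₀))) := by
  have hnt := nonempty A
  obtain ⟨c, hc⟩ := hξ
  obtain ⟨h, l, Q₀, hh, hQ₀, hnd⟩ := descend A.nd hc hN
  have hKf : Finite (FixK ξ.right) := inferInstance
  rcases Quad.plus_or_minus hnd (m := n) (by rw [Module.finrank_fintype_fun_eq_card]; exact hn) with hP | hM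
  · left
    obtain ⟨φ, hφ⟩ := Quad.IsPlus.isom (Quad.plusQ_isPlus (F := FixK ξ.right) (n + 1)) hP
    exact rs_of hh hQ₀ (fun x => rat_plus (FixK ξ.right).subtype x) hφ
  · right
    intro a₀ b₀ hab
    have ha : ξ.right (e a₀) = e a₀ := (he _).mpr ⟨_, rfl⟩
    have hb : ξ.right (e b₀) = e b₀ := (he _).mpr ⟨_, rfl⟩
    let a₁ : FixK ξ.right := ⟨e a₀, ha⟩
    let b₁ : FixK ξ.right := ⟨e b₀, hb⟩
    have hab' : ∀ z₁ z₂ : FixK ξ.right, z₁ ^ 2 + a₁ * z₁ * z₂ + b₁ * z₂ ^ 2 = 0 → z₁ = 0 ∧ z₂ = 0 := by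
      rintro ⟨z₁, hz₁⟩ ⟨z₂, hz₂⟩ h0
      obtain ⟨y₁, rfl⟩ := (he z₁).mp hz₁
      obtain ⟨y₂, rfl⟩ := (he z₂).mp hz₂
      have h1 : (e y₁) ^ 2 + e a₀ * e y₁ * e y₂ + e b₀ * (e y₂) ^ 2 = 0 := congrArg (fun z : FixK ξ.right => (z : F)) h0
      have h2 := hab y₁ y₂ (e.injective (by rw [map_zero, ← h1]; simp only [map_add, map_mul, map_pow]))
      refine ⟨Subtype.ext ?_, Subtype.ext ?_⟩
      · change e y₁ = 0
        rw [h2.1, map_zero]
      · change e y₂ = 0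
        rw [h2.2, map_zero]
    obtain ⟨φ, hφ⟩ := Quad.IsMinus.isom (Quad.nd_minusQ n hab') hnd (Quad.minusQ_isMinus n hab') hM
    exact rs_of hh hQ₀ (fun x => rat_minus (FixK ξ.right).subtype a₁ b₁ x) hφ

/-- images of subspaces. -/
theorem RS.im_map {A : OD ι F} {ξ : Gm ι F} {Q₁ : QuadraticForm F (ι₀ → F)} (R : RS A ξ Q₁)
    {W W' : Submodule F (ι₀ → F)} (h : ∀ v, v ∈ W ↔ (fun i => ξ.right (v i)) ∈ W') :
    im ξ (W.map R.L.toLinearMap) = W'.map R.L.toLinearMap := by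
  ext w
  obtain ⟨u, rfl⟩ : ∃ u, w = sl ξ u := ⟨sl ξ⁻¹ w, (sl_sl_inv ξ w).symm⟩
  obtain ⟨v, rfl⟩ := R.L.surjective u
  rw [sl_mem_im, R.hξ]
  constructor
  · rintro ⟨x, hx, hxv⟩
    have : x = v := R.L.injective hxv
    subst this
    exact ⟨_, (h x).mp hx, rfl⟩
  · rintro ⟨x, hx, hxv⟩
    have : x = fun i => ξ.right (v i) := R.L.injective hxv
    subst this
    exact ⟨v, (h v).mpr hx, rfl⟩

theorem pr_map (L : (ι₀ → F) ≃ₗ[F] (ι → F)) (W W' : Submodule F (ι₀ → F)) :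
    pr (W.map L.toLinearMap) (W'.map L.toLinearMap) = pr W W' := by
  rw [pr, pr, ← Submodule.map_inf _ L.injective]
  congr 2
  · exact LinearEquiv.finrank_map_eq L W
  · exact LinearEquiv.finrank_map_eq L _

theorem RS.isMax {A : OD ι F} {ξ : Gm ι F} {Q₁ : QuadraticForm F (ι₀ → F)} (R : RS A ξ Q₁)
    {W : Submodule F (ι₀ → F)} (h : Quad.IsMax Q₁ W) : Quad.IsMax A.Q (W.map R.L.toLinearMap) := by
  refine ⟨?_, ?_⟩
  · rintro _ ⟨v, hv, rfl⟩
    change A.Q (R.L v) = 0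
    rw [R.hL, h.1 v hv, mul_zero]
  · rw [← R.L.finrank_eq, ← h.2]
    congr 1
    exact LinearEquiv.finrank_map_eq R.L W

/-- parity from a rational structure. -/
theorem RS.par {A : OD ι F} {ξ : Gm ι F} {Q₁ : QuadraticForm F (ι₀ → F)} (R : RS A ξ Q₁) (hξ : ξ ∈ GamO ⇑A.Q)
    {U : Submodule F (ι → F)} (hU : Quad.IsMax A.Q U) {W W' : Submodule F (ι₀ → F)} (hW : Quad.IsMax Q₁ W)
    (h : ∀ v, v ∈ W ↔ (fun i => ξ.right (v i)) ∈ W') : parH A.nd hU ⟨ξ, hξ⟩ = pr W W' := by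
  rw [← parH_indep A.nd hU (R.isMax hW)]
  change pr (W.map R.L.toLinearMap) (im ξ (W.map R.L.toLinearMap)) = _
  rw [R.im_map h, pr_map]

/-- plus forms and minus forms are not similar. -/
theorem RS.plus_of {A : OD ι F} {ξ : Gm ι F} {Q₁ : QuadraticForm F (ι₀ → F)} (R : RS A ξ Q₁) {n : ℕ}
    (h : Quad.IsPlus Q₁ n) (hQ : (QuadraticMap.polarBilin Q₁).Nondegenerate) : Quad.IsPlus A.Q n :=
  (h.smul R.l.ne_zero hQ).map (φ := R.L) (fun v => by rw [R.hL]; rfl)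

theorem RS.plus_to {A : OD ι F} {ξ : Gm ι F} {Q₁ : QuadraticForm F (ι₀ → F)} (R : RS A ξ Q₁) {n : ℕ}
    (h : Quad.IsPlus A.Q n) (hQ : (QuadraticMap.polarBilin Q₁).Nondegenerate) : Quad.IsPlus Q₁ n := by
  have h1 : Quad.IsPlus ((R.l : F) • Q₁) n := h.map (φ := R.L.symm) (fun v => by
    obtain ⟨w, rfl⟩ := R.L.surjective v
    rw [LinearEquiv.symm_apply_apply, R.hL]; rfl)
  have h2 := h1.smul (c := ((R.l⁻¹ : Fˣ) : F)) (R.l⁻¹).ne_zero (Quad.nd_smulQ R.l.ne_zero hQ)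
  have h3 : ((R.l⁻¹ : Fˣ) : F) • ((R.l : F) • Q₁) = Q₁ := by
    ext v
    change ((R.l⁻¹ : Fˣ) : F) * ((R.l : F) * Q₁ v) = Q₁ v
    rw [← mul_assoc, ← Units.val_mul, inv_mul_cancel, Units.val_one, one_mul]
  rwa [h3] at h2

/-- the conjugacy theorem. -/
theorem conj_main {A : OD ι F} (S : EvS A) {n : ℕ} (hn : Fintype.card ι = 2 * n + 2)
    (c : (fam A).Γ →* ℤˣ) (hc : ∀ x, (fam A).T x = 1 → c x = 1)
    (hPM : ∀ (x x' : (fam A).Γ) (a₀ b₀ : F), RS A x (Quad.plusQ F (n + 1)) → AnF (x' : Gm ι F).right a₀ b₀ →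
      RS A x' (Quad.minusQ F n a₀ b₀) → c x ≠ c x')
    (x x' : (fam A).Γ) (hr : (x : Gm ι F).right = (x' : Gm ι F).right)
    (hx : (fam A).T x ^ orderOf (x : Gm ι F).right = 1) (hx' : (fam A).T x' ^ orderOf (x : Gm ι F).right = 1)
    (hcc : c x = c x') :
    ∃ z : (fam A).N, S.E z = 1 ∧
      (fam A).T ((fam A).nin z) * (fam A).T x * ((fam A).T ((fam A).nin z))⁻¹ = (fam A).T x' := by
  have hnt := nonempty A
  obtain ⟨t, ht⟩ := exists_nrm x hx
  obtain ⟨t', ht'⟩ := exists_nrm x' (by rw [← hr]; exact hx')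
  set y : (fam A).Γ := (fam A).nin ⟨scl ι t, (fam A).sc t⟩ * x with hy
  set y' : (fam A).Γ := (fam A).nin ⟨scl ι t', (fam A).sc t'⟩ * x' with hy'
  have hTy : (fam A).T y = (fam A).T x := by rw [hy, _root_.map_mul, T_scl, one_mul]
  have hTy' : (fam A).T y' = (fam A).T x' := by rw [hy', _root_.map_mul, T_scl, one_mul]
  have hyr : (y : Gm ι F).right = (x : Gm ι F).right := by
    rw [hy, Subgroup.coe_mul, SemidirectProduct.mul_right]
    exact one_mul _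
  have hyr' : (y' : Gm ι F).right = (x : Gm ι F).right := by
    rw [hy', Subgroup.coe_mul, SemidirectProduct.mul_right, hr]
    exact one_mul _
  have hyl : (y : Gm ι F).left = scl ι t * (x : Gm ι F).left := by
    rw [hy, Subgroup.coe_mul, SemidirectProduct.mul_left]
    change scl ι t * gσ 1 (x : Gm ι F).left = _
    rw [gσ_one]
  have hyl' : (y' : Gm ι F).left = scl ι t' * (x' : Gm ι F).left := by
    rw [hy', Subgroup.coe_mul, SemidirectProduct.mul_left]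
    change scl ι t' * gσ 1 (x' : Gm ι F).left = _
    rw [gσ_one]
  have hcy : c y = c x := by rw [hy, _root_.map_mul, hc _ (T_scl A t), one_mul]
  have hcy' : c y' = c x' := by rw [hy', _root_.map_mul, hc _ (T_scl A t'), one_mul]
  have hcyy : c y = c y' := by rw [hcy, hcy', hcc]
  have hNy : Nn (y : Gm ι F).right (y : Gm ι F).left (orderOf (y : Gm ι F).right) = 1 := by
    rw [hyr, hyl]; exact ht
  have hNy' : Nn (y' : Gm ι F).right (y' : Gm ι F).left (orderOf (y' : Gm ι F).right) = 1 := by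
    rw [hyr', hyl', hr]; exact ht'
  have fin : ∀ z : (fam A).N, S.E z = 1 → SemidirectProduct.inl (z : GL ι F) * (y : Gm ι F) *
      (SemidirectProduct.inl (z : GL ι F))⁻¹ = (y' : Gm ι F) → ∃ z : (fam A).N, S.E z = 1 ∧
      (fam A).T ((fam A).nin z) * (fam A).T x * ((fam A).T ((fam A).nin z))⁻¹ = (fam A).T x' := by
    intro z hz h
    refine ⟨z, hz, ?_⟩
    rw [← hTy, ← hTy', ← _root_.map_mul, ← _root_.map_inv, ← _root_.map_mul]
    congr 1
    exact Subtype.ext h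
  have he : ∀ a, (y : Gm ι F).right a = a ↔ a ∈ Set.range (FixK (y : Gm ι F).right).subtype := by
    intro a
    constructor
    · intro h; exact ⟨⟨a, h⟩, rfl⟩
    · rintro ⟨⟨a, ha⟩, rfl⟩; exact ha
  have hyy : (y : Gm ι F).right = (y' : Gm ι F).right := by rw [hyr, hyr']
  have f1 := forms hn y.2 hNy (FixK (y : Gm ι F).right).subtype he
  have f2 := forms hn y'.2 hNy' (FixK (y : Gm ι F).right).subtype (by rw [← hyy]; exact he)
  have hKf : Finite (FixK (y : Gm ι F).right) := inferInstance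
  obtain ⟨ζ, hζ⟩ := exists_an (FixK (y : Gm ι F).right)
  have hζF := (anF_iff he).mpr hζ
  rcases f1 with ⟨⟨R⟩⟩ | f1
  · rcases f2 with ⟨⟨R'⟩⟩ | f2
    · -- both plus
      obtain ⟨z, h1, h2⟩ := RS.conj S y.2 hyy R R' (v₀ := Pi.single (Sum.inl 0) 1 + Pi.single (Sum.inr 0) 1) (by
        rw [Quad.plusQ_apply, Cfsg.quadFormPlus, Finset.sum_eq_single 0]
        · simp
        · intro i _ hi
          simp [hi]
        · simp) (by
        intro i
        rcases i with i | i <;> by_cases hi : i = 0 <;> simp [hi])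
      exact fin z h1 h2
    · obtain ⟨R'⟩ := f2 1 ζ hζ
      exact absurd hcyy (hPM y y' _ _ R (by rw [← hyy]; exact hζF) R')
  · rcases f2 with ⟨⟨R'⟩⟩ | f2
    · obtain ⟨R⟩ := f1 1 ζ hζ
      exact absurd hcyy.symm (hPM y' y _ _ R' hζF R)
    · obtain ⟨R⟩ := f1 1 ζ hζ
      obtain ⟨R'⟩ := f2 1 ζ hζ
      obtain ⟨z, h1, h2⟩ := RS.conj S y.2 hyy R R' (v₀ := Pi.single (Sum.inr 0) 1) (by
        rw [Quad.minusQ_apply, Cfsg.quadFormMinus]
        simp) (by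
        intro i
        by_cases hi : i = Sum.inr 0
        · subst hi; simp
        · simp [hi])
      exact fin z h1 h2

end Forms

section Types

variable {F : Type*} [Field F] [Finite F]

omit [Finite F] in
theorem RS.nd {ι₀ ι : Type} [Fintype ι₀] [DecidableEq ι₀] [Fintype ι] [DecidableEq ι] {A : OD ι F} {ξ : Gm ι F}
    {Q₁ : QuadraticForm F (ι₀ → F)} (R : RS A ξ Q₁) : (QuadraticMap.polarBilin Q₁).Nondegenerate := by
  apply Quad.nd_of
  intro x hx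
  apply R.L.injective
  rw [_root_.map_zero]
  apply Quad.nd_eq_zero A.nd
  intro y
  obtain ⟨w, rfl⟩ := R.L.surjective y
  have h1 : polar A.Q (R.L x) (R.L w) = R.l * polar Q₁ x w := by
    rw [polar, polar, ← map_add, R.hL, R.hL, R.hL]
    ring
  rw [h1, hx, mul_zero]

theorem parG_of_plus {m : ℕ} (hm : 4 ≤ m) {n : ℕ} {x : (fam (odP F hm)).Γ}
    (R : RS (odP F hm) (x : Gm (Fin m ⊕ Fin m) F) (Quad.plusQ F n)) : parG hm x = 1 := by
  have h1 := R.par x.2 (Quad.isMax_U0 m) (W := Quad.U0 F n) (W' := Quad.U0 F n) (Quad.isMax_U0 n) (by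
    intro v
    rw [Quad.mem_U0, Quad.mem_U0]
    exact forall_congr' fun i => (map_eq_zero _).symm)
  rw [pr_self] at h1
  exact h1

theorem parG_of_minus {m : ℕ} (hm : 4 ≤ m) {n : ℕ} (hmn : m = n + 1) {x : (fam (odP F hm)).Γ} {a₀ b₀ : F}
    (hAn : AnF (x : Gm (Fin m ⊕ Fin m) F).right a₀ b₀)
    (R : RS (odP F hm) (x : Gm (Fin m ⊕ Fin m) F) (Quad.minusQ F n a₀ b₀)) : parG hm x = -1 := by
  have hnd := R.nd
  have h1 := R.plus_to (n := n + 1) (by rw [← hmn]; exact Quad.plusQ_isPlus m) hnd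
  obtain ⟨ω, hω⟩ : ∃ ω : F, ω ^ 2 + a₀ * ω + b₀ = 0 := by
    by_contra hcon
    push Not at hcon
    refine Quad.not_plus_and_minus hnd h1 (Quad.minusQ_isMinus n ?_)
    intro z₁ z₂ h0
    by_cases hz : z₂ = 0
    · rw [hz] at h0
      refine ⟨?_, hz⟩
      have : z₁ ^ 2 = 0 := by linear_combination h0
      exact pow_eq_zero_iff (two_ne_zero) |>.mp this
    · exfalso
      apply hcon (z₁ / z₂)
      field_simp
      linear_combination h0
  obtain ⟨ha, hb, han⟩ := hAn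
  set σ := (x : Gm (Fin m ⊕ Fin m) F).right with hσ
  have hne : σ ω ≠ ω := by
    intro h
    have := han ω 1 h (map_one σ) (by linear_combination hω)
    exact one_ne_zero this.2
  have h2 := R.par x.2 (Quad.isMax_U0 m) (W := UK n ω) (W' := UK n (σ ω)) (isMax_UK n hω) (by
    intro v
    rw [mem_UK, mem_UK]
    constructor
    · rintro ⟨h3, h4⟩
      exact ⟨fun i => by rw [h3, map_zero], by rw [h4, map_mul]⟩
    · rintro ⟨h3, h4⟩
      exact ⟨fun i => (map_eq_zero σ).mp (h3 i), σ.injective (by rw [h4, map_mul])⟩)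
  have h3 : parG hm x = pr (UK n ω) (UK n (σ ω)) := h2
  rw [h3, pr, finrank_UK, finrank_UK_inf n hne.symm]
  exact Odd.neg_one_pow ⟨n, by ring⟩

theorem no_plus {a b : F} {m : ℕ} (hab : An a b) (hm : 3 ≤ m) {ξ : Gm ((Fin m ⊕ Fin m) ⊕ Fin 2) F}
    (R : RS (odM hab hm) ξ (Quad.plusQ F (m + 1))) : False :=
  Quad.not_plus_and_minus (odM hab hm).nd (R.plus_of (Quad.plusQ_isPlus (m + 1)) (Quad.nd_plusQ (m + 1)))
    (Quad.minusQ_isMinus m hab)

end Types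

section Ord

variable {S : Type*} [Group S] {ι : Type} [Fintype ι] [DecidableEq ι] {F : Type*} [Field F] {Φ : Fam S ι F}

theorem right_of_T {x y : Φ.Γ} (h : Φ.T x = Φ.T y) : (x : Gm ι F).right = (y : Gm ι F).right := by
  have h1 : Φ.T (x * y⁻¹) = 1 := by rw [_root_.map_mul, _root_.map_inv, h, mul_inv_cancel]
  obtain ⟨c, hc⟩ := (Φ.T_eq_one_iff _).mp h1
  have h2 := congrArg SemidirectProduct.right hc
  rw [Subgroup.coe_mul, Subgroup.coe_inv, SemidirectProduct.mul_right, SemidirectProduct.inv_right,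
    SemidirectProduct.right_inl, mul_inv_eq_one] at h2
  exact h2

theorem orderOf_right {x : Φ.Γ} {r : ℕ} (hr : r.Prime) (hx : orderOf (Φ.T x) = r) (h1 : (x : Gm ι F).right ≠ 1) :
    orderOf (x : Gm ι F).right = r := by
  have : Fact r.Prime := ⟨hr⟩
  apply orderOf_eq_prime _ h1
  have h2 : Φ.T (x ^ r) = Φ.T 1 := by rw [_root_.map_pow, ← hx, pow_orderOf_eq_one, _root_.map_one]
  have h3 := right_of_T h2
  rw [Subgroup.coe_pow] at h3
  have h4 : ∀ k : ℕ, ((x : Gm ι F) ^ k).right = (x : Gm ι F).right ^ k := by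
    intro k
    induction k with
    | zero => rw [pow_zero, pow_zero]; rfl
    | succ k ih => rw [pow_succ, pow_succ, SemidirectProduct.mul_right, ih]
  rw [h4] at h3
  exact h3

end Ord

end Cfsg.Agent.H16.Par
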