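import Cfsg.Agent.H16_PolA

set_option autoImplicit false

/-! Polar spaces: automorphisms permute the points when the unipotent radicals are abelian (Borel-Tits argument). -/

namespace Cfsg.Agent.H16.Ps

namespace PolG

variable {F V S : Type*} [Field F] [AddCommGroup V] [Module F V] [Group S] (P : PolG F V S)

/-- pointwise stabilizer of `W` acting trivially on `W^⊥/W`. -/
def RR (W : Submodule F V) : Subgroup S where
  carrier := {g | (∀ w ∈ W, P.r g w = w) ∧ ∀ x, (∀ w ∈ W, P.h w x = 0) → P.r g x - x ∈ W}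
  one_mem' := ⟨fun w _ => P.r_one w, fun x _ => by rw [P.r_one, sub_self]; exact W.zero_mem⟩
  mul_mem' := by
    rintro a b ⟨ha, ha'⟩ ⟨hb, hb'⟩
    refine ⟨fun w hw => by rw [P.r_mul, hb w hw, ha w hw], fun x hx => ?_⟩
    have h1 : P.r (a * b) x - x = (P.r a x - x) + (P.r b x - x) := by
      rw [P.r_mul]
      have h2 := ha _ (hb' x hx)
      have h3 : P.r a (P.r b x) = P.r a x + P.r a (P.r b x - x) := by
        rw [← P.r_add]; congr 1; abel
      rw [h3, h2]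
      abel
    rw [h1]
    exact W.add_mem (ha' x hx) (hb' x hx)
  inv_mem' := by
    rintro a ⟨ha, ha'⟩
    have h1 : ∀ w ∈ W, P.r a⁻¹ w = w := fun w hw => by
      conv_lhs => rw [← ha w hw]
      exact P.r_inv_r a w
    refine ⟨h1, fun x hx => ?_⟩
    have h2 := ha' x hx
    have h3 := h1 _ h2
    have h4 : P.r a⁻¹ x - x = -(P.r a⁻¹ (P.r a x - x)) := by
      have h5 : P.r a⁻¹ (P.r a x - x) = x - P.r a⁻¹ x := by
        rw [_root_.map_sub, P.r_inv_r]
      rw [h5, neg_sub]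
    rw [h4, h3]
    exact W.neg_mem h2

variable {P}

theorem mem_RR {W : Submodule F V} {g : S} : g ∈ P.RR W ↔
    (∀ w ∈ W, P.r g w = w) ∧ ∀ x, (∀ w ∈ W, P.h w x = 0) → P.r g x - x ∈ W := Iff.rfl

theorem RR_perp {W : Submodule F V} {g : S} (hg : g ∈ P.RR W) (x : V) : ∀ w ∈ W, P.h w (P.r g x - x) = 0 := by
  intro w hw
  rw [P.h_sub_right]
  have h1 := P.r_h g w x
  rw [hg.1 w hw] at h1
  rw [h1, sub_self]

/-- `RR W` is normalized by the stabilizer of `W`. -/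
theorem RR_conj {W : Submodule F V} {s : S} (hs : ∀ w ∈ W, P.r s w ∈ W) (hs' : ∀ w ∈ W, P.r s⁻¹ w ∈ W) {g : S}
    (hg : g ∈ P.RR W) : s⁻¹ * g * s ∈ P.RR W := by
  refine ⟨fun w hw => ?_, fun x hx => ?_⟩
  · rw [P.r_mul, P.r_mul, hg.1 _ (hs w hw), P.r_inv_r]
  · have h1 : P.r (s⁻¹ * g * s) x - x = P.r s⁻¹ (P.r g (P.r s x) - P.r s x) := by
      rw [_root_.map_sub, P.r_inv_r, P.r_mul, P.r_mul]
    rw [h1]
    refine hs' _ (hg.2 _ fun w hw => ?_)
    have h2 : P.h w (P.r s x) = P.h (P.r s⁻¹ w) x := by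
      rw [P.r_h_left, inv_inv]
    rw [h2]
    exact hx _ (hs' w hw)

variable {p : ℕ} [Fact p.Prime] [CharP F p]

/-- `RR W` is a `p`-group. -/
theorem RR_pgroup {W : Submodule F V} (hi : ∀ w ∈ W, ∀ x ∈ W, P.h w x = 0) : IsPGroup p (P.RR W) := by
  rintro ⟨g, hg⟩
  refine ⟨2, Subtype.ext ?_⟩
  rw [Subgroup.coe_pow, Subgroup.coe_one]
  apply P.ext_r
  intro x
  rw [P.r_pow, P.r_one]
  have hch : CharP (Module.End F V) p ∨ Subsingleton (Module.End F V) := by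
    rcases subsingleton_or_nontrivial V with hV | hV
    · right; infer_instance
    · left
      exact charP_of_injective_algebraMap (algebraMap F (Module.End F V)).injective p
  rcases hch with hch | hch
  · set N : Module.End F V := P.r g - 1 with hN
    have h1 : P.r g ^ p ^ 2 = 1 + N ^ p ^ 2 := by
      have h2 : P.r g = 1 + N := by rw [hN]; abel
      rw [h2]
      rw [add_pow_char_pow_of_commute p 2 (Commute.one_left N), one_pow]
    have hN1 : ∀ y, N y = P.r g y - y := fun y => rfl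
    have h3 : N ^ 3 = 0 := by
      apply LinearMap.ext
      intro y
      have e1 : (N ^ 3) y = N (N (N y)) := rfl
      rw [e1, LinearMap.zero_apply, hN1 (N (N y)), hN1 (N y), hN1 y]
      have h4 := hg.2 _ (RR_perp hg y)
      rw [hg.1 _ h4, sub_self]
    have hp2 : 3 ≤ p ^ 2 := by
      have := (Fact.out : p.Prime).two_le
      nlinarith
    rw [h1, pow_eq_zero_of_le hp2 h3, add_zero]
    rfl
  · exact congrArg (fun f : Module.End F V => f x) (Subsingleton.elim (P.r g ^ p ^ 2) 1)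

/-- abelian radicals. -/
theorem Q_comm (hsym : ∀ x y, P.h x y = P.h y x) {v : V} (hv : P.sg v) (hv0 : v ≠ 0) {s t : S} (hs : s ∈ P.Q v)
    (ht : t ∈ P.Q v) : s * t = t * s := by
  obtain ⟨f, hf, hvf⟩ := P.exists_opp hv hv0
  apply P.Q_ext hvf (mul_mem hs ht) (mul_mem ht hs)
  obtain ⟨a, ha⟩ := P.r_f hv hf hvf hs
  obtain ⟨b, hb⟩ := P.r_f hv hf hvf ht
  rw [P.r_mul, P.r_mul, ha, hb, P.r_add, P.r_add, P.r_add, P.r_add, ha, hb, P.r_smul, P.r_smul, hs.1, ht.1,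
    P.Q_act' hv hf hvf hs (P.uu_mem hv hf hvf t), P.Q_act' hv hf hvf ht (P.uu_mem hv hf hvf s),
    hsym (P.uu v f t) (P.uu v f s)]
  abel

/-- displacement operators add up. -/
theorem RR_add {W : Submodule F V} {g : S} (hg : g ∈ P.RR W) {D : V → V} (hD : ∀ x, D x ∈ W) {t : S}
    (ht : ∀ x, P.r t x = x + D x) (x : V) : P.r (g * t) x = P.r g x + D x := by
  rw [P.r_mul, ht, P.r_add, hg.1 _ (hD x)]

end PolG

namespace PolT

variable {F V S T : Type*} [Field F] [AddCommGroup V] [Module F V] [Group S] [Group T] (P : PolT F V S T)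
variable {p : ℕ} [Fact p.Prime] [CharP F p]

omit [CharP F p] in
theorem pm_inj_pgroup [CharP F p] {K : Subgroup S} (hK : IsPGroup p K) (hV : ∃ x : V, x ≠ 0) {s t : S} (hs : s ∈ K) (ht : t ∈ K)
    (h : P.pm s = P.pm t) : s = t := by
  obtain ⟨k, hk⟩ := exists_pow hK hs
  obtain ⟨l, hl⟩ := exists_pow hK ht
  exact P.pm_inj_of_pow hk hl h hV

include P in
/-- the Borel-Tits subspace. -/
theorem exists_W [Finite S] [Finite V] [Finite F] (hB : P.Big)
    (hne : ∀ v f, P.sg v → P.sg f → P.h v f = 1 → ∃ x ∈ P.perp v f, x ≠ 0)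
    (α : MulAut T) {v : V} (hv : P.sg v) (hv0 : v ≠ 0) :
    ∃ (W : Submodule F V) (g : S) (K : Sylow p S), (∀ w ∈ W, P.sg w) ∧ (∀ w ∈ W, ∀ x ∈ W, P.h w x = 0) ∧
      P.r g v ∈ W ∧
      (∀ s s', P.pm s' = α (P.pm s) → Sim F v (P.r s v) → ∀ w ∈ W, P.r s' w ∈ W) ∧
      (∀ s' ∈ K, ∃ s, P.pm s' = α (P.pm s) ∧ P.r s v = v) := by
  have hV : ∃ x : V, x ≠ 0 := ⟨v, hv0⟩
  obtain ⟨K, hK⟩ := (P.Q_pgroup (p := p) hv hv0).exists_le_sylow
  have hKfix := P.pgroup_fix hB hv hv0 K.isPGroup' hK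
  -- the image of K under α lifts
  have hN1 : IsPGroup p (((K : Subgroup S).map P.pm).map α.toMonoidHom) := (K.isPGroup'.map _).map _
  obtain ⟨K₂, hK₂, hK₂m⟩ := P.exists_lift _ hN1
  have hcard : Nat.card K₂ = Nat.card K := by
    have e1 : Nat.card (K₂.map P.pm) = Nat.card K₂ := by
      refine (Nat.card_congr (Equiv.ofBijective (fun s : K₂ => (⟨P.pm s, s, s.2, rfl⟩ : K₂.map P.pm)) ⟨?_, ?_⟩)).symm
      · intro a b hab
        exact Subtype.ext (P.pm_inj_pgroup hK₂ hV a.2 b.2 (congrArg Subtype.val hab))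
      · rintro ⟨_, s, hs, rfl⟩
        exact ⟨⟨s, hs⟩, rfl⟩
    have e2 : Nat.card ((K : Subgroup S).map P.pm) = Nat.card K := by
      refine (Nat.card_congr (Equiv.ofBijective (fun s : K => (⟨P.pm s, s, s.2, rfl⟩ : (K : Subgroup S).map P.pm)) ⟨?_, ?_⟩)).symm
      · intro a b hab
        exact Subtype.ext (P.pm_inj_pgroup K.isPGroup' hV a.2 b.2 (congrArg Subtype.val hab))
      · rintro ⟨_, s, hs, rfl⟩
        exact ⟨⟨s, hs⟩, rfl⟩
    have e3 : Nat.card (((K : Subgroup S).map P.pm).map α.toMonoidHom) = Nat.card ((K : Subgroup S).map P.pm) :=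
      Subgroup.card_map_of_injective α.injective
    rw [← e1, hK₂m, e3, e2]
  let K' : Sylow p S := Sylow.ofCard K₂ (by rw [hcard, K.card_eq_multiplicity])
  have hK'c : ((K' : Sylow p S) : Subgroup S) = K₂ := rfl
  obtain ⟨g, hg⟩ := MulAction.exists_smul_eq S K K'
  set v' := P.r g v with hv'
  have hsv' : P.sg v' := P.r_sg g v hv
  have hv0' : v' ≠ 0 := P.r_ne_zero g hv0
  have hQK' : P.Q v' ≤ K₂ := by
    rw [← hK'c, ← hg]
    intro s hs
    rw [Sylow.coe_subgroup_smul, Subgroup.mem_pointwise_smul_iff_inv_smul_mem]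
    apply hK
    have := (P.conj_mem_Q g⁻¹).mpr hs
    rw [hv', P.r_inv_r] at this
    have h2 : (MulAut.conj g)⁻¹ • s = g⁻¹ * s * g⁻¹⁻¹ := by
      rw [← map_inv, MulAut.smul_def, MulAut.conj_apply]
    rw [h2]
    exact this
  have hK₂fix := P.pgroup_fix hB hsv' hv0' hK₂ hQK'
  have hK₂α : ∀ s' ∈ K₂, ∃ s, P.pm s' = α (P.pm s) ∧ P.r s v = v := by
    intro s' hs'
    have h1 : P.pm s' ∈ K₂.map P.pm := ⟨s', hs', rfl⟩
    rw [hK₂m] at h1
    obtain ⟨_, ⟨s, hs, rfl⟩, h2⟩ := h1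
    exact ⟨s, h2.symm, hKfix s hs⟩
  -- lift of the radical
  have hN2 : IsPGroup p ((P.QT v).map α.toMonoidHom) := (P.QT_pgroup hv hv0).map _
  obtain ⟨P₀, hP₀, hP₀m⟩ := P.exists_lift _ hN2
  have hP₀K : P₀ ≤ K₂ := by
    intro t ht
    have h1 : P.pm t ∈ P₀.map P.pm := ⟨t, ht, rfl⟩
    rw [hP₀m] at h1
    obtain ⟨_, ⟨q, hq, rfl⟩, h2⟩ := h1
    have h3 : P.pm t ∈ K₂.map P.pm := by
      rw [hK₂m, ← h2]
      exact ⟨_, ⟨q, hK hq, rfl⟩, rfl⟩
    obtain ⟨t₂, ht₂, h4⟩ := h3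
    obtain ⟨k, hk⟩ := exists_pow hP₀ ht
    obtain ⟨l, hl⟩ := exists_pow hK₂ ht₂
    rw [P.pm_inj_of_pow hk hl h4.symm hV]
    exact ht₂
  have hnorm : ∀ s s', P.pm s' = α (P.pm s) → Sim F v (P.r s v) → ∀ t ∈ P₀, s'⁻¹ * t * s' ∈ P₀ := by
    intro s s' hss hs
    apply P.lift_normal hP₀ hV
    intro n hn
    rw [hP₀m] at hn ⊢
    obtain ⟨q, hq, rfl⟩ := hn
    refine ⟨_, P.QT_normal hs hq, ?_⟩
    change α _ = (P.pm s')⁻¹ * α q * P.pm s'
    rw [map_mul, map_mul, map_inv, hss]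
  -- the fixed space
  let U : Submodule F V :=
    { carrier := {x | ∀ t ∈ P₀, P.r t x = x}
      add_mem' := fun {x y} hx hy t ht => by rw [P.r_add, hx t ht, hy t ht]
      zero_mem' := fun t _ => map_zero _
      smul_mem' := fun c x hx t ht => by rw [P.r_smul, hx t ht] }
  have hUinv : ∀ s s', P.pm s' = α (P.pm s) → Sim F v (P.r s v) → ∀ w ∈ U, P.r s' w ∈ U := by
    intro s s' hss hs w hw t ht
    have h1 : t * s' = s' * (s'⁻¹ * t * s') := by group
    rw [← P.r_mul, h1, P.r_mul, hw _ (hnorm s s' hss hs t ht)]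
  have hinvα : ∀ s s', P.pm s' = α (P.pm s) → Sim F v (P.r s v) →
      P.pm s'⁻¹ = α (P.pm s⁻¹) ∧ Sim F v (P.r s⁻¹ v) := by
    intro s s' hss hs
    refine ⟨by rw [map_inv, map_inv, map_inv, hss], ?_⟩
    have := P.sim_r s⁻¹ hs
    rw [P.r_inv_r] at this
    exact this.symm
  have hv'U : v' ∈ U := fun t ht => hK₂fix t (hP₀K ht)
  have hv'perp : ∀ u ∈ U, P.h u v' = 0 := by
    by_contra hcon
    push Not at hcon
    obtain ⟨u, hu, huv⟩ := hcon
    have huv' := P.h_comm_ne huv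
    obtain ⟨f, hf, hvf⟩ := P.exists_opp hsv' hv0'
    have hQU : ∀ t ∈ P.Q v', ∀ w ∈ U, P.r t w ∈ U := by
      intro t ht w hw
      obtain ⟨s, hs, hsv⟩ := hK₂α t (hQK' ht)
      exact hUinv s t hs (by rw [hsv]; exact Sim.refl v) w hw
    have hperp : P.perp v' f ≤ U := by
      intro w hw
      obtain ⟨t, ht, htw⟩ := P.exU hsv' hf hvf hw
      obtain ⟨a, ha⟩ := P.r_f hsv' hf hvf ht
      rw [htw] at ha
      have h1 := hQU t ht u hu
      have h2 := P.eq_prj v' f u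
      have h3 : P.r t u - u = P.h v' u • (w + a • v') - (P.ε * P.h (P.uu v' f t) (P.prj v' f u)) • v' := by
        conv_lhs => rw [h2]
        rw [P.r_add, P.r_add, P.r_smul, P.r_smul, ht.1, ha, P.Q_act' hsv' hf hvf ht (P.prj_mem hsv' hf hvf u)]
        simp only [smul_add]
        abel
      have h4 : P.h v' u • w ∈ U := by
        have h5 : P.h v' u • w = (P.r t u - u) - (P.h v' u * a) • v' +
            (P.ε * P.h (P.uu v' f t) (P.prj v' f u)) • v' := by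
          rw [h3, smul_add, smul_smul]
          abel
        rw [h5]
        exact U.add_mem (U.sub_mem (U.sub_mem h1 hu) (U.smul_mem _ hv'U)) (U.smul_mem _ hv'U)
      have h5 := U.smul_mem (P.h v' u)⁻¹ h4
      rwa [smul_smul, inv_mul_cancel₀ huv', one_smul] at h5
    have hfU : f ∈ U := by
      have h2 := P.eq_prj v' f u
      have h3 : P.h v' u • f ∈ U := by
        have h4 : P.h v' u • f = u - (P.ε * P.h f u) • v' - P.prj v' f u := by
          calc P.h v' u • f = ((P.ε * P.h f u) • v' + P.h v' u • f + P.prj v' f u) - (P.ε * P.h f u) • v' -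
                P.prj v' f u := by abel
            _ = _ := by rw [← h2]
        rw [h4]
        exact U.sub_mem (U.sub_mem hu (U.smul_mem _ hv'U)) (hperp (P.prj_mem hsv' hf hvf u))
      have h5 := U.smul_mem (P.h v' u)⁻¹ h3
      rwa [smul_smul, inv_mul_cancel₀ huv', one_smul] at h5
    have htop : ∀ x, x ∈ U := by
      intro x
      rw [P.eq_prj v' f x]
      exact U.add_mem (U.add_mem (U.smul_mem _ hv'U) (U.smul_mem _ hfU)) (hperp (P.prj_mem hsv' hf hvf x))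
    -- then P₀ = 1
    obtain ⟨f₁, hf₁, hvf₁⟩ := P.exists_opp hv hv0
    obtain ⟨x, hx, hx0⟩ := hne v f₁ hv hf₁ hvf₁
    obtain ⟨q, hq, hqx⟩ := P.exU hv hf₁ hvf₁ hx
    have h1 : α (P.pm q) ∈ P₀.map P.pm := by
      rw [hP₀m]
      exact ⟨_, ⟨q, hq, rfl⟩, rfl⟩
    obtain ⟨t, ht, h2⟩ := h1
    have h3 : t = 1 := P.ext_r fun x => by rw [htop x t ht, P.r_one]
    rw [h3, map_one] at h2
    have h4 : P.pm q = 1 := by
      apply α.injective
      rw [map_one, ← h2]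
    have h5 : q = 1 := P.Q_lift hv hv0 hq (one_mem _) (by rw [h4, map_one])
    rw [h5, P.uu_one hf₁ hvf₁] at hqx
    exact hx0 hqx.symm
  refine ⟨⟨⟨⟨{x | x ∈ U ∧ (∀ u ∈ U, P.h u x = 0) ∧ P.sg x}, ?_⟩, ?_⟩, ?_⟩, g, K', ?_, ?_, ?_, ?_, ?_⟩
  · rintro x y ⟨h1, h2, h3⟩ ⟨h4, h5, h6⟩
    exact ⟨U.add_mem h1 h4, fun u hu => by rw [P.h_add_right, h2 u hu, h5 u hu, add_zero],
      P.sg_add x y h3 h6 (h5 x h1)⟩
  · exact ⟨U.zero_mem, fun u _ => P.h_zero_right u, P.sg_zero v' hsv'⟩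
  · rintro c x ⟨h1, h2, h3⟩
    exact ⟨U.smul_mem _ h1, fun u hu => by rw [P.h_smul_right, h2 u hu, mul_zero], P.sg_smul c x h3⟩
  · rintro w ⟨-, -, h⟩
    exact h
  · rintro w ⟨h1, -, -⟩ x ⟨-, h2, -⟩
    exact h2 w h1
  · exact ⟨hv'U, hv'perp, hsv'⟩
  · rintro s s' hss hs w ⟨h1, h2, h3⟩
    refine ⟨hUinv s s' hss hs w h1, fun u hu => ?_, P.r_sg _ _ h3⟩
    obtain ⟨h4, h5⟩ := hinvα s s' hss hs
    have h6 := h2 _ (hUinv _ _ h4 h5 u hu)
    have h7 : P.h u (P.r s' w) = P.h (P.r s'⁻¹ u) w := by rw [P.r_h_left, inv_inv]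
    rw [h7]
    exact h6
  · exact hK₂α

/-- points go to points, Borel-Tits version. -/
theorem rel_of_BT [Finite S] [Finite V] [Finite F] (hB : P.Big)
    (hne : ∀ v f, P.sg v → P.sg f → P.h v f = 1 → ∃ x ∈ P.perp v f, x ≠ 0) (hI : P.Irr)
    (hQ : ∀ v, P.sg v → v ≠ 0 → ∀ s ∈ P.Q v, ∀ t ∈ P.Q v, s * t = t * s)
    (hR : ∀ v, P.sg v → v ≠ 0 → ∀ W : Submodule F V, (∀ w ∈ W, P.sg w) → (∀ w ∈ W, ∀ x ∈ W, P.h w x = 0) →
      (∃ w ∈ W, ∃ x ∈ W, w ≠ 0 ∧ x ≠ 0 ∧ ¬ Sim F w x) →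
      (∀ s ∈ P.RR W, ∀ t ∈ P.RR W, s * t = t * s) → Nat.card (P.Q v) < Nat.card (P.RR W))
    (α : MulAut T) {v : V} (hv : P.sg v) (hv0 : v ≠ 0) : ∃ v', P.Rel α v v' := by
  obtain ⟨p, hp⟩ := CharP.exists F
  have : Fact p.Prime := ⟨CharP.char_is_prime F p⟩
  have hV : ∃ x : V, x ≠ 0 := ⟨v, hv0⟩
  have : Finite T := Finite.of_surjective _ P.pm_surj
  obtain ⟨W, g, K, hWs, hWi, hgv, hW, hK⟩ := P.exists_W (p := p) hB hne α hv hv0
  set v' := P.r g v with hv'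
  have hsv' : P.sg v' := P.r_sg g v hv
  have hv0' : v' ≠ 0 := P.r_ne_zero g hv0
  have hinvα : ∀ s s', P.pm s' = α (P.pm s) → Sim F v (P.r s v) →
      P.pm s'⁻¹ = α (P.pm s⁻¹) ∧ Sim F v (P.r s⁻¹ v) := by
    intro s s' hss hs
    refine ⟨by rw [map_inv, map_inv, map_inv, hss], ?_⟩
    have := P.sim_r s⁻¹ hs
    rw [P.r_inv_r] at this
    exact this.symm
  have hRp : IsPGroup p (P.RR W) := PolG.RR_pgroup hWi
  -- RR W is contained in K
  have hRK : P.RR W ≤ K := by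
    have h1 : (K : Subgroup S) ≤ Subgroup.normalizer (P.RR W : Set S) := by
      have key : ∀ s' ∈ K, ∀ t ∈ P.RR W, s'⁻¹ * t * s' ∈ P.RR W := by
        intro s' hs' t ht
        obtain ⟨s, hs, hsv⟩ := hK s' hs'
        have hsim : Sim F v (P.r s v) := by rw [hsv]; exact Sim.refl v
        obtain ⟨h4, h5⟩ := hinvα s s' hs hsim
        exact PolG.RR_conj (hW s s' hs hsim) (hW _ _ h4 h5) ht
      intro s' hs'
      rw [Subgroup.mem_normalizer_iff]
      intro t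
      constructor
      · intro ht
        have := key s'⁻¹ (inv_mem hs') t ht
        rwa [inv_inv] at this
      · intro ht
        have := key s' hs' _ ht
        have e : s'⁻¹ * (s' * t * s'⁻¹) * s' = t := by group
        rwa [e] at this
    have h2 : IsPGroup p ((K : Subgroup S) ⊔ P.RR W : Subgroup S) :=
      IsPGroup.to_sup_of_normal_right' K.isPGroup' hRp h1
    have h3 := K.is_maximal' h2 le_sup_left
    rw [← h3]
    exact le_sup_right
  -- pull back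
  have hle : (P.RR W).map P.pm ≤ (P.QT v).map α.toMonoidHom := by
    have h1 : ((P.RR W).map P.pm).map (α⁻¹ : MulAut T).toMonoidHom ≤ P.QT v := by
      refine P.OP (p := p) hI hv hv0 _ ((hRp.map _).map _) ?_ ?_
      · rintro s ⟨_, ⟨t, ht, rfl⟩, h2⟩
        obtain ⟨s₁, h3, h4⟩ := hK t (hRK ht)
        have h5 : P.pm s₁ = P.pm s := by
          apply α.injective
          rw [← h3, ← h2]
          exact (α.apply_symm_apply _).symm
        obtain ⟨c, hc⟩ := P.pm_eq h5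
        have h6 := hc v
        rw [h4] at h6
        exact ⟨c, P.pm_ne_zero hc hv0, h6⟩
      · rintro s hs _ ⟨_, ⟨t, ht, rfl⟩, rfl⟩
        obtain ⟨s', hs'⟩ := P.pm_surj (α (P.pm s))
        obtain ⟨h4, h5⟩ := hinvα s s' hs' hs
        refine ⟨_, ⟨_, PolG.RR_conj (hW s s' hs' hs) (hW _ _ h4 h5) ht, rfl⟩, ?_⟩
        change α⁻¹ (P.pm (s'⁻¹ * t * s')) = (P.pm s)⁻¹ * α⁻¹ (P.pm t) * P.pm s
        rw [map_mul P.pm, map_mul P.pm, map_inv P.pm, hs', map_mul α⁻¹, map_mul α⁻¹, map_inv α⁻¹]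
        have h6 : α⁻¹ (α (P.pm s)) = P.pm s := α.symm_apply_apply _
        rw [h6]
    rintro _ ⟨t, ht, rfl⟩
    refine ⟨_, h1 ⟨_, ⟨t, ht, rfl⟩, rfl⟩, ?_⟩
    exact α.apply_symm_apply _
  -- W is a line
  have hline : ∀ w ∈ W, w ≠ 0 → Sim F v' w := by
    by_contra hcon
    push Not at hcon
    obtain ⟨w, hw, hw0, hw'⟩ := hcon
    have hcomm : ∀ s ∈ P.RR W, ∀ t ∈ P.RR W, s * t = t * s := by
      intro s hs t ht
      obtain ⟨_, ⟨a, ha, rfl⟩, h2⟩ := hle ⟨s, hs, rfl⟩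
      obtain ⟨_, ⟨b, hb, rfl⟩, h3⟩ := hle ⟨t, ht, rfl⟩
      refine P.pm_inj_pgroup hRp hV (mul_mem hs ht) (mul_mem ht hs) ?_
      rw [map_mul, map_mul, ← h2, ← h3]
      change α (P.pm a) * α (P.pm b) = α (P.pm b) * α (P.pm a)
      rw [← map_mul, ← map_mul, ← map_mul, ← map_mul, hQ v hv hv0 a ha b hb]
    have h1 := hR v hv hv0 W hWs hWi ⟨v', hgv, w, hw, hv0', hw0, hw'⟩ hcomm
    have e1 : Nat.card ((P.RR W).map P.pm) = Nat.card (P.RR W) := by
      refine (Nat.card_congr (Equiv.ofBijective (fun s : P.RR W => (⟨P.pm s, s, s.2, rfl⟩ : (P.RR W).map P.pm)) ⟨?_, ?_⟩)).symm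
      · intro a b hab
        exact Subtype.ext (P.pm_inj_pgroup hRp hV a.2 b.2 (congrArg Subtype.val hab))
      · rintro ⟨_, s, hs, rfl⟩
        exact ⟨⟨s, hs⟩, rfl⟩
    have e2 : Nat.card ((P.RR W).map P.pm) ≤ Nat.card ((P.QT v).map α.toMonoidHom) :=
      Nat.card_le_card_of_injective _ (Subgroup.inclusion_injective hle)
    have e3 : Nat.card ((P.QT v).map α.toMonoidHom) = Nat.card (P.QT v) :=
      Subgroup.card_map_of_injective α.injective
    have e4 : Nat.card (P.QT v) ≤ Nat.card (P.Q v) :=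
      Nat.card_le_card_of_surjective _ (P.pm.subgroupMap_surjective (P.Q v))
    omega
  -- stabilizers
  have hst1 : ∀ s s', P.pm s' = α (P.pm s) → Sim F v (P.r s v) → Sim F v' (P.r s' v') := by
    intro s s' hss hs
    exact hline _ (hW s s' hss hs _ hgv) (P.r_ne_zero s' hv0')
  let St : V → Subgroup T := fun x =>
    { carrier := {t | ∃ s, P.pm s = t ∧ Sim F x (P.r s x)}
      one_mem' := ⟨1, map_one _, by rw [P.r_one]; exact Sim.refl x⟩
      mul_mem' := by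
        rintro _ _ ⟨s, rfl, hs⟩ ⟨t, rfl, ht⟩
        refine ⟨s * t, map_mul _ _ _, ?_⟩
        rw [P.r_mul]
        exact hs.trans (P.sim_r s ht)
      inv_mem' := by
        rintro _ ⟨s, rfl, hs⟩
        refine ⟨s⁻¹, map_inv _ _, ?_⟩
        have := P.sim_r s⁻¹ hs
        rw [P.r_inv_r] at this
        exact this.symm }
  have hStle : (St v).map α.toMonoidHom ≤ St v' := by
    rintro _ ⟨_, ⟨s, rfl, hs⟩, rfl⟩
    obtain ⟨s', hs'⟩ := P.pm_surj (α (P.pm s))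
    exact ⟨s', hs', hst1 s s' hs' hs⟩
  have hStc : Nat.card (St v') ≤ Nat.card (St v) := by
    have hmap : ∀ t : St v', (P.pm g)⁻¹ * t * P.pm g ∈ St v := by
      rintro ⟨_, s, rfl, hs⟩
      refine ⟨g⁻¹ * s * g, by rw [map_mul, map_mul, map_inv], ?_⟩
      rw [P.r_mul, P.r_mul, ← hv']
      have := P.sim_r g⁻¹ hs
      rwa [hv', P.r_inv_r, ← hv'] at this
    refine Nat.card_le_card_of_injective (fun t : St v' => (⟨_, hmap t⟩ : St v)) ?_
    intro a b hab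
    have := congrArg Subtype.val hab
    exact Subtype.ext (mul_left_cancel (mul_right_cancel this))
  have hSteq : (St v).map α.toMonoidHom = St v' := by
    apply Subgroup.eq_of_le_of_card_ge hStle
    rw [Subgroup.card_map_of_injective α.injective]
    exact hStc
  refine ⟨v', P.rel_of_stab hI α hv hv0 hsv' hv0' fun s s' hss => ⟨hst1 s s' hss, fun hs' => ?_⟩⟩
  have h1 : P.pm s' ∈ St v' := ⟨s', rfl, hs'⟩
  rw [← hSteq] at h1
  obtain ⟨_, ⟨s₁, rfl, h3⟩, h4⟩ := h1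
  have h5 : P.pm s₁ = P.pm s := by
    apply α.injective
    rw [← hss]
    exact h4
  obtain ⟨c, hc⟩ := P.pm_eq h5
  rw [hc v]
  exact h3.trans (Sim.smul (P.pm_ne_zero hc hv0))

end PolT

end Cfsg.Agent.H16.Ps
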