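import Cfsg.Agent.H16_PolC

set_option autoImplicit false

/-! Radicals of stabilizers of totally singular subspaces. -/

namespace Cfsg.Agent.H16.Ps

open Module

namespace PolG

variable {F V S : Type*} [Field F] [AddCommGroup V] [Module F V] [Group S] {P : PolG F V S}

theorem r_sub (s : S) (x y : V) : P.r s (x - y) = P.r s x - P.r s y := map_sub _ _ _

theorem exRR {W : Submodule F V} (hWi : ∀ w ∈ W, ∀ x ∈ W, P.h w x = 0) {e : V} (he : P.sg e) (he0 : e ≠ 0)
    (heW : e ∈ W) {u : V} (hu : ∀ w ∈ W, P.h w u = 0) [Finite V] [Finite F] :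
    ∃ t ∈ P.RR W, ∃ a c : F, ∀ x, P.r t x = x + P.h e x • (u + a • e) - (P.ε * P.h (u + a • e) x) • e +
      (c * P.h e x) • e := by
  obtain ⟨f, hf, hef⟩ := P.exists_opp he he0
  obtain ⟨t, ht, h1⟩ := P.exU he hf hef (P.prj_mem he hf hef u)
  obtain ⟨c, hc⟩ := P.r_f he hf hef ht
  have h2 : P.prj e f u = u + (-(P.ε * P.h f u)) • e := by
    rw [Pol.prj, hu e heW, zero_smul, sub_zero, neg_smul, sub_eq_add_neg]
  have h3 : ∀ x, P.r t x = x + P.h e x • (u + (-(P.ε * P.h f u)) • e) -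
      (P.ε * P.h (u + (-(P.ε * P.h f u)) • e) x) • e + (c * P.h e x) • e := by
    intro x
    conv_lhs => rw [P.eq_prj e f x]
    rw [P.r_add, P.r_add, P.r_smul, P.r_smul, ht.1, hc, P.Q_act' he hf hef ht (P.prj_mem he hf hef x), h1,
      P.h_prj_right he hf hef (P.prj_mem he hf hef u), ← h2]
    have h4 : ∀ A : V, P.h e x • (f + P.prj e f u + c • e) = P.h e x • f + P.h e x • P.prj e f u + (c * P.h e x) • e := by
      intro _
      rw [smul_add, smul_add, smul_smul, mul_comm c]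
    rw [h4 0]
    conv_rhs => rw [add_sub_assoc, add_assoc]; 
    conv_rhs => enter [1]; rw [P.eq_prj e f x]
    abel
  have h5 : ∀ w ∈ W, P.h (u + (-(P.ε * P.h f u)) • e) w = 0 := by
    intro w hw
    rw [P.h_add_left, P.h_smul_left, hWi e heW w hw, P.h_comm_zero.mp (hu w hw), mul_zero, add_zero]
  refine ⟨t, ⟨fun w hw => ?_, fun x hx => ?_⟩, _, c, h3⟩
  · rw [h3, hWi e heW w hw, h5 w hw]
    simp
  · rw [h3, hx e heW]
    have : x + (0 : F) • (u + (-(P.ε * P.h f u)) • e) - (P.ε * P.h (u + (-(P.ε * P.h f u)) • e) x) • e +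
      (c * 0) • e - x = -((P.ε * P.h (u + (-(P.ε * P.h f u)) • e) x) • e) := by
      rw [zero_smul, mul_zero, zero_smul]; abel
    rw [this]
    exact W.neg_mem (W.smul_mem _ heW)

/-- if `RR W` is abelian then `W^⊥` is totally isotropic. -/
theorem perp_of_comm [Finite V] [Finite F] {W : Submodule F V} (hWs : ∀ w ∈ W, P.sg w)
    (hWi : ∀ w ∈ W, ∀ x ∈ W, P.h w x = 0)
    (hex : ∃ w ∈ W, ∃ x ∈ W, w ≠ 0 ∧ x ≠ 0 ∧ ¬ Sim F w x)
    (hc : ∀ s ∈ P.RR W, ∀ t ∈ P.RR W, s * t = t * s) {u u' : V} (hu : ∀ w ∈ W, P.h w u = 0)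
    (hu' : ∀ w ∈ W, P.h w u' = 0) : P.h u u' = 0 := by
  obtain ⟨v₁, hv₁, v₂, hv₂, h1, h2, h3⟩ := hex
  obtain ⟨s, hs, a, c, hs'⟩ := exRR hWi (hWs v₁ hv₁) h1 hv₁ hu
  obtain ⟨t, ht, b, d, ht'⟩ := exRR hWi (hWs v₂ hv₂) h2 hv₂ hu'
  set u₁ := u + a • v₁ with hu₁
  set u₂ := u' + b • v₂ with hu₂
  have h4 : P.h u₁ u₂ = P.h u u' := by
    rw [hu₁, hu₂, P.h_add_left, P.h_add_right, P.h_add_right, P.h_smul_left, P.h_smul_left, P.h_smul_right,
      P.h_smul_right, hWi v₁ hv₁ v₂ hv₂, hu' v₁ hv₁, P.h_comm_zero.mp (hu v₂ hv₂)]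
    ring
  obtain ⟨x, hx1, hx2⟩ := P.exists_sep (x := v₂) (y := v₁) (by
    intro k hk
    exact h3 (sim_of_eq_smul hk h2))
  have hu₁W : ∀ w ∈ W, P.h w u₁ = 0 := by
    intro w hw
    rw [hu₁, P.h_add_right, P.h_smul_right, hu w hw, hWi w hw v₁ hv₁]; ring
  have hu₂W : ∀ w ∈ W, P.h w u₂ = 0 := by
    intro w hw
    rw [hu₂, P.h_add_right, P.h_smul_right, hu' w hw, hWi w hw v₂ hv₂]; ring
  have hu₁W' : ∀ w ∈ W, P.h u₁ w = 0 := fun w hw => P.h_comm_zero.mp (hu₁W w hw)
  have hu₂W' : ∀ w ∈ W, P.h u₂ w = 0 := fun w hw => P.h_comm_zero.mp (hu₂W w hw)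
  -- evaluate at `x`, `h v₂ x = 1`, `h v₁ x = 0`
  have h5 : P.r s (P.r t x) = P.r t (P.r s x) := by
    rw [← P.r_mul, ← P.r_mul, hc s hs t ht]
  have h6 : P.r s u₂ = u₂ - (P.ε * P.h u₁ u₂) • v₁ := by
    rw [hs', hu₂W v₁ hv₁, mul_zero, zero_smul, zero_smul]; abel
  have h7 : P.r t x = x + u₂ - (P.ε * P.h u₂ x) • v₂ + d • v₂ := by
    rw [ht', hx1, mul_one, one_smul]
  have h8 : P.r s x = x - (P.ε * P.h u₁ x) • v₁ := by
    rw [hs', hx2, mul_zero, zero_smul, zero_smul]; abel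
  rw [h7, P.r_add, r_sub, P.r_add, P.r_smul, P.r_smul, hs.1 v₂ hv₂, h6, h8, r_sub, P.r_smul, ht.1 v₁ hv₁, h7] at h5
  have h9 : (P.ε * P.h u₁ u₂) • v₁ = 0 := by
    have := sub_eq_zero.mpr h5
    have e : (x - (P.ε * P.h u₁ x) • v₁ + (u₂ - (P.ε * P.h u₁ u₂) • v₁) - (P.ε * P.h u₂ x) • v₂ + d • v₂) -
      (x + u₂ - (P.ε * P.h u₂ x) • v₂ + d • v₂ - (P.ε * P.h u₁ x) • v₁) = -((P.ε * P.h u₁ u₂) • v₁) := by abel
    rw [e] at this
    exact neg_eq_zero.mp this
  rw [← h4]
  exact (mul_eq_zero.mp ((smul_eq_zero.mp h9).resolve_right h1)).resolve_left P.eps_ne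

variable (P) in
/-- dual vectors. -/
theorem exists_dual [Finite V] [Finite F] {k : ℕ} {b : Fin k → V} (hb : LinearIndependent F b) (c : Fin k → F) :
    ∃ y, ∀ i, P.h (b i) y = c i := by
  let f : V →ₗ[F] (Fin k → F) := LinearMap.pi fun i => P.lin (b i)
  have hf : Function.Surjective f := by
    rw [← LinearMap.dualMap_injective_iff, injective_iff_map_eq_zero]
    intro φ hφ
    have h1 : ∀ y, ∑ i, P.h (b i) y * φ (Pi.single i 1) = 0 := by
      intro y
      have h2 := congrArg (fun ψ : Dual F V => ψ y) hφ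
      simp only [LinearMap.dualMap_apply, LinearMap.zero_apply] at h2
      rw [← h2]
      have h3 : f y = ∑ i, P.h (b i) y • (Pi.single i (1 : F) : Fin k → F) := by
        funext j
        simp [f, Finset.sum_apply, Pi.single_apply, Pol.lin_apply]
      rw [h3, map_sum]
      simp
    have h4 : ∑ i, P.bar (φ (Pi.single i 1)) • b i = 0 := by
      refine P.nondeg _ fun y => ?_
      rw [← P.h_comm_zero, P.h_sum_right]
      have h5 := congrArg (fun t => P.ε * P.bar t) (h1 y)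
      simp only [map_zero, mul_zero, map_sum, Finset.mul_sum, map_mul] at h5
      rw [← h5]
      refine Finset.sum_congr rfl fun i _ => ?_
      rw [P.h_smul_right, P.h_symm (b i) y]
      ring
    rw [Fintype.linearIndependent_iff] at hb
    have h5 := hb _ h4
    apply LinearMap.pi_ext'
    intro i
    apply LinearMap.ext_ring
    have := h5 i
    rw [P.bar_eq_zero] at this
    exact this
  obtain ⟨y, hy⟩ := hf c
  exact ⟨y, fun i => congrFun hy i⟩

theorem card_RR [Finite V] [Finite F] [Finite S] {W : Submodule F V} (hWi : ∀ w ∈ W, ∀ x ∈ W, P.h w x = 0)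
    {k : ℕ} {b : Fin k → V} (hbW : ∀ i, b i ∈ W) (hb : LinearIndependent F b) (J : Finset (Fin k × Fin k))
    (hJ : ∀ p ∈ J, p.1 ≤ p.2) (hE : ∀ p ∈ J, ∀ c : F, ∃ s ∈ P.RR W, ∀ x, P.r s x = x +
      ((c * P.h (b p.1) x) • b p.2 + (if p.1 = p.2 then 0 else -(P.ε * P.bar c * P.h (b p.2) x)) • b p.1)) :
    Nat.card F ^ J.card ≤ Nat.card (P.RR W) := by
  classical
  set D : Fin k × Fin k → F → V → V := fun p c x => (c * P.h (b p.1) x) • b p.2 +
    (if p.1 = p.2 then 0 else -(P.ε * P.bar c * P.h (b p.2) x)) • b p.1 with hD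
  have hDW : ∀ p c x, D p c x ∈ W := fun p c x =>
    W.add_mem (W.smul_mem _ (hbW _)) (W.smul_mem _ (hbW _))
  have key : ∀ (γ : Fin k × Fin k → F) (I : Finset (Fin k × Fin k)), I ⊆ J →
      ∃ s ∈ P.RR W, ∀ x, P.r s x = x + ∑ p ∈ I, D p (γ p) x := by
    intro γ I
    induction I using Finset.induction_on with
    | empty => intro _; exact ⟨1, one_mem _, fun x => by rw [P.r_one]; simp⟩
    | insert a I ha ih =>
      intro hI
      obtain ⟨s, hs, h1⟩ := ih (fun x hx => hI (Finset.mem_insert_of_mem hx))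
      obtain ⟨t, ht, h2⟩ := hE a (hI (Finset.mem_insert_self a I)) (γ a)
      refine ⟨s * t, mul_mem hs ht, fun x => ?_⟩
      rw [RR_add hs (hDW a (γ a)) h2, h1, Finset.sum_insert ha]
      abel
  choose s hs h1 using fun γ : Fin k × Fin k → F => key γ J (Finset.Subset.refl J)
  have hinj : ∀ γ γ' : Fin k × Fin k → F, s γ = s γ' → ∀ p ∈ J, γ p = γ' p := by
    intro γ γ' h p hp
    obtain ⟨y, hy⟩ := exists_dual P hb (Pi.single p.1 1)
    obtain ⟨z, hz⟩ := exists_dual P hb (Pi.single p.2 1)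
    have h2 : ∀ γ : Fin k × Fin k → F, P.h (P.r (s γ) y - y) z = P.bar (γ p) := by
      intro γ
      have h3 : P.r (s γ) y - y = ∑ p ∈ J, D p (γ p) y := by rw [h1]; abel
      have h4 : ∀ (I : Finset (Fin k × Fin k)), P.h (∑ p ∈ I, D p (γ p) y) z = ∑ p ∈ I, P.h (D p (γ p) y) z := by
        intro I
        induction I using Finset.induction_on with
        | empty => simp [P.h_zero_left]
        | insert a I ha ih => rw [Finset.sum_insert ha, Finset.sum_insert ha, P.h_add_left, ih]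
      rw [h3, h4, Finset.sum_eq_single p]
      · simp only [hD]
        rw [P.h_add_left, P.h_smul_left, P.h_smul_left, hy, hy, hz, hz, Pi.single_eq_same, Pi.single_eq_same]
        split_ifs with h5
        · simp
        · rw [Pi.single_eq_of_ne (Ne.symm h5)]
          simp
      · intro q hq hqp
        simp only [hD]
        rw [P.h_add_left, P.h_smul_left, P.h_smul_left, hy, hy, hz, hz]
        have hpq := hJ p hp
        have hqq := hJ q hq
        by_cases h5 : q.1 = p.1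
        · have h6 : q.2 ≠ p.2 := fun h6 => hqp (Prod.ext h5 h6)
          rw [Pi.single_eq_of_ne h6]
          split_ifs with h7
          · simp
          · have h8 : q.2 ≠ p.1 := by rw [← h5]; exact fun h => h7 h.symm
            rw [Pi.single_eq_of_ne h8]
            simp
        · rw [Pi.single_eq_of_ne h5]
          split_ifs with h7
          · simp
          · by_cases h8 : q.2 = p.1
            · have h9 : q.1 ≠ p.2 := by
                intro h9
                have : p.2 < p.1 := by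
                  rw [← h9, ← h8]
                  exact lt_of_le_of_ne hqq h7
                exact absurd hpq (not_le.mpr this)
              rw [Pi.single_eq_of_ne h9]
              simp
            · rw [Pi.single_eq_of_ne h8]
              simp
      · intro h; exact absurd hp h
    have h3 := h2 γ
    rw [h, h2 γ'] at h3
    have h4 := congrArg P.bar h3
    rw [P.bar_bar, P.bar_bar] at h4
    exact h4.symm
  have hcard : Nat.card (J → F) = Nat.card F ^ J.card := by
    rw [Nat.card_fun, Nat.card_eq_fintype_card (α := J), Fintype.card_coe]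
  rw [← hcard]
  refine Nat.card_le_card_of_injective
    (fun γ : J → F => (⟨s (fun p => if h : p ∈ J then γ ⟨p, h⟩ else 0), hs _⟩ : P.RR W)) ?_
  intro γ γ' h
  have h2 := hinj _ _ (congrArg Subtype.val h)
  funext ⟨p, hp⟩
  have h3 := h2 p hp
  simpa [hp] using h3

/-- Siegel elements inside `W`. -/
theorem exRR_pair [Finite V] [Finite F] {W : Submodule F V} (hWs : ∀ w ∈ W, P.sg w)
    (hWi : ∀ w ∈ W, ∀ x ∈ W, P.h w x = 0) {e x : V} (heW : e ∈ W) (hxW : x ∈ W) (he0 : e ≠ 0)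
    (hex : ∀ c : F, e ≠ c • x) (c : F) : ∃ s ∈ P.RR W, ∀ y, P.r s y = y + ((c * P.h e y) • x +
      (-(P.ε * P.bar c * P.h x y)) • e) := by
  obtain ⟨f, hf, hef, hxf⟩ := P.exists_opp_perp (hWs e heW) (hWi x hxW e heW) hex
  obtain ⟨s, -, h1, h2, h3⟩ := P.exE0 (hWs e heW) hf hef (P.sg_smul c x (hWs x hxW))
    (by rw [P.h_smul_right, hWi e heW x hxW, mul_zero])
    (by rw [P.h_smul_right, P.h_comm_zero.mp hxf, mul_zero])
  have h4 : ∀ y, P.r s y = y + ((c * P.h e y) • x + (-(P.ε * P.bar c * P.h x y)) • e) := by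
    intro y
    rw [h3, P.h_smul_left, smul_smul, mul_comm (P.h e y), mul_assoc P.ε, sub_eq_add_neg, ← neg_smul, add_assoc]
  refine ⟨s, ⟨fun w hw => ?_, fun y hy => ?_⟩, h4⟩
  · rw [h4, hWi e heW w hw, hWi x hxW w hw]
    simp
  · rw [h4, hy e heW, hy x hxW]
    simp

/-- bounds for the radical. -/
theorem card_Q_le [Finite V] [Finite F] [Finite S] {v : V} (hv : P.sg v) (hv0 : v ≠ 0) :
    Nat.card (P.Q v) * Nat.card F ≤ Nat.card V := by
  obtain ⟨f, hf, hvf⟩ := P.exists_opp hv hv0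
  have h1 : Nat.card (P.Q v) ≤ Nat.card (LinearMap.ker (P.lin v)) := by
    refine Nat.card_le_card_of_injective (fun t : P.Q v => (⟨P.r t f - f, P.h_v_sub t.2⟩ :
      LinearMap.ker (P.lin v))) ?_
    intro a b hab
    have := congrArg Subtype.val hab
    exact Subtype.ext (P.Q_ext hvf a.2 b.2 (sub_left_injective this))
  have h2 : Nat.card V = Nat.card (LinearMap.ker (P.lin v)) * Nat.card F := by
    have h3 : Function.Surjective (P.lin v) := by
      intro c
      exact ⟨c • f, by rw [Pol.lin_apply, P.h_smul_right, hvf, mul_one]⟩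
    rw [← Nat.card_congr (LinearMap.quotKerEquivOfSurjective (P.lin v) h3).toEquiv]
    exact Submodule.card_eq_card_quotient_mul_card (LinearMap.ker (P.lin v))
  rw [h2]
  exact Nat.mul_le_mul_right _ h1

theorem card_Q_le' [Finite V] [Finite F] [Finite S] {v : V} (hv : P.sg v) (hv0 : v ≠ 0)
    (hX : ∀ t ∈ P.X v, t = 1) : Nat.card (P.Q v) * Nat.card F ^ 2 ≤ Nat.card V := by
  obtain ⟨f, hf, hvf⟩ := P.exists_opp hv hv0
  have h1 : Nat.card (P.Q v) ≤ Nat.card (P.perp v f) := by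
    refine Nat.card_le_card_of_injective (fun t : P.Q v => (⟨P.uu v f t, P.uu_mem hv hf hvf t⟩ : P.perp v f)) ?_
    intro a b hab
    have h2 : P.uu v f a = P.uu v f b := congrArg Subtype.val hab
    have h3 : P.uu v f ((a : S) * (b : S)⁻¹) = 0 := by
      rw [P.uu_mul hv hf hvf a.2 (inv_mem b.2), P.uu_inv hv hf hvf b.2, h2, add_neg_cancel]
    have h4 := hX _ ((P.mem_X_iff hv hf hvf (mul_mem a.2 (inv_mem b.2))).mpr h3)
    exact Subtype.ext (mul_inv_eq_one.mp h4)
  have h2 := P.finrank_perp hv hf hvf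
  rw [Module.natCard_eq_pow_finrank (K := F) (V := V), ← h2, pow_add, ← Module.natCard_eq_pow_finrank (K := F)]
  exact Nat.mul_le_mul_right _ h1

end PolG

end Cfsg.Agent.H16.Ps
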