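import Cfsg.Agent.H17_Zig

/-! lower bounds for `|V : C_V(a)|`, non-faithful action -/

set_option autoImplicit false

namespace Cfsg.Agent.H17.Ba

open Cfsg Cfsg.Agent.H17.Base Cfsg.Agent.H17.Zig

variable {G : Type*} [Group G] {p : ℕ}

/-- orbits of an `r`-element -/
theorem semireg' [Finite G] {W : Subgroup G} {y : G} (hy : y ∈ Nz W) {r e j : ℕ} (hr : r.Prime) (ho : orderOf y = r ^ e)
    (h : ∀ w ∈ W, y ^ r ^ j * w * (y ^ r ^ j)⁻¹ = w → w = 1) : r ^ (j + 1) ∣ Nat.card W - 1 := by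
  classical
  let X := {w : W // w ≠ 1}
  have hyn : ∀ g ∈ Subgroup.zpowers y, ∀ w : W, g * (w : G) * g⁻¹ ∈ W := by
    intro g hg w
    have : Subgroup.zpowers y ≤ Nz W := by rw [Subgroup.zpowers_le]; exact hy
    exact (Subgroup.mem_normalizer_iff.1 (this hg) _).1 w.2
  let act : MulAction (Subgroup.zpowers y) X :=
    { smul := fun g w => ⟨⟨(g : G) * ((w : W) : G) * (g : G)⁻¹, hyn g g.2 w⟩, by
        intro h1
        apply w.2
        have h2 : (g : G) * ((w : W) : G) * (g : G)⁻¹ = 1 := congrArg Subtype.val h1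
        apply Subtype.ext
        show ((w : W) : G) = 1
        have h3 : ((w : W) : G) = (g : G)⁻¹ * ((g : G) * ((w : W) : G) * (g : G)⁻¹) * g := by group
        rw [h3, h2]; group⟩
      one_smul := fun w => by
        apply Subtype.ext; apply Subtype.ext
        show (1 : G) * ((w : W) : G) * (1 : G)⁻¹ = _
        group
      mul_smul := fun a b w => by
        apply Subtype.ext; apply Subtype.ext
        show ((a : G) * b) * ((w : W) : G) * ((a : G) * b)⁻¹ = (a : G) * ((b : G) * ((w : W) : G) * (b : G)⁻¹) * (a : G)⁻¹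
        group }
  have hX : Nat.card X = Nat.card W - 1 := by
    have := Fintype.ofFinite W
    rw [Nat.card_eq_fintype_card, Nat.card_eq_fintype_card]
    exact Fintype.card_subtype_compl _ |>.trans (by simp)
  rw [← hX]
  apply Cfsg.Agent.H3.Grp.dvd_card_of_stabilizer (N := Subgroup.zpowers y)
  intro x
  obtain ⟨D, hD⟩ : ∃ D, D = MulAction.stabilizer (Subgroup.zpowers y) x := ⟨_, rfl⟩
  rw [← hD]
  have h1 : D.index ∣ r ^ e := by
    rw [← ho, ← Nat.card_zpowers]; exact Subgroup.index_dvd_card D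
  obtain ⟨t, -, ht⟩ := (Nat.dvd_prime_pow hr).1 h1
  rw [ht]
  apply pow_dvd_pow
  by_contra hlt
  push Not at hlt
  have htj : t ≤ j := by omega
  have h2 : (⟨y, Subgroup.mem_zpowers y⟩ : Subgroup.zpowers y) ^ D.index ∈ D := by
    have hn : D.Normal := inferInstance
    exact Subgroup.pow_index_mem D _
  have h3 : (⟨y, Subgroup.mem_zpowers y⟩ : Subgroup.zpowers y) ^ r ^ j ∈ D := by
    rw [ht] at h2
    have : r ^ j = r ^ t * r ^ (j - t) := by rw [← pow_add]; congr 1; omega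
    rw [this, pow_mul]
    exact D.pow_mem h2 _
  rw [hD] at h3
  have h4 : (y ^ r ^ j) * ((x : W) : G) * (y ^ r ^ j)⁻¹ = ((x : W) : G) :=
    congrArg (fun z : X => ((z : W) : G)) (MulAction.mem_stabilizer_iff.1 h3)
  exact x.2 (Subtype.ext (h _ (x : W).2 h4))

/-- the basic bound -/
theorem bound' [Fact p.Prime] [Finite G] {V L : Subgroup G} (hV : IsMulCommutative V) (hVp : IsPGroup p V) (hL : L ≤ Nz V)
    {r : ℕ} (hr : r.Prime) (hrp : r ≠ p) {y : G} (hyL : y ∈ L) {e j : ℕ} (hy : orderOf y = r ^ e)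
    (hf : y ^ r ^ j ∉ Cz V) :
    ∃ w : ℕ, 0 < w ∧ r ^ (j + 1) ∣ p ^ w - 1 ∧ p ^ w ≤ (V ⊓ Cz L).relIndex V := by
  have hrf : Fact r.Prime := ⟨hr⟩
  obtain ⟨z, hz⟩ : ∃ z, z = y ^ r ^ j := ⟨_, rfl⟩
  rw [← hz] at hf
  have hyV : y ∈ Nz V := hL hyL
  have hzL : z ∈ L := by rw [hz]; exact pow_mem hyL _
  have hzV : Subgroup.zpowers z ≤ Nz V := by rw [Subgroup.zpowers_le]; exact hL hzL
  have hcop : (Nat.card (Subgroup.zpowers z)).Coprime (Nat.card V) := by
    obtain ⟨n, hn⟩ := IsPGroup.iff_card.1 hVp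
    rw [Nat.card_zpowers, hn]
    apply Nat.Coprime.pow_right
    have h1 : orderOf z ∣ r ^ e := by rw [hz, ← hy]; exact orderOf_pow_dvd _
    exact Nat.Coprime.coprime_dvd_left h1 (Nat.Coprime.pow_left _ ((Nat.coprime_primes hr (Fact.out)).2 hrp))
  obtain ⟨W, hW⟩ : ∃ W, W = ⁅V, Subgroup.zpowers z⁆ := ⟨_, rfl⟩
  have h0 := Cfsg.Agent.H1.Coprime.inf_commutator_eq_bot_of_abelian (Subgroup.zpowers z) V hzV hcop
  rw [← hW] at h0
  have hWV : W ≤ V := by rw [hW]; exact commutator_le_left_iff.2 hzV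
  have hW1 : W ≠ ⊥ := by
    intro h
    rw [h] at hW
    apply hf
    have := commutator_eq_bot_iff_le_Cz'.1 hW.symm
    exact this (Subgroup.mem_zpowers z)
  have hyW : y ∈ Nz W := by
    rw [hW]
    refine Nz_commutator_le _ _ ⟨hyV, ?_⟩
    show y ∈ Nz (Subgroup.zpowers z)
    rw [mem_Nz_iff_cj]
    show (Subgroup.zpowers z).map (MulAut.conj y).toMonoidHom = _
    rw [MonoidHom.map_zpowers]
    congr 1
    show y * z * y⁻¹ = z
    rw [hz]; group
  have hWc : ∀ w ∈ W, z * w * z⁻¹ = w → w = 1 := by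
    intro w hw hzw
    have h1 : w ∈ (V ⊓ Cz (Subgroup.zpowers z)) ⊓ W := by
      refine ⟨⟨hWV hw, ?_⟩, hw⟩
      show w ∈ Cz (Subgroup.zpowers z)
      have h2 : Subgroup.zpowers z ≤ Cz (Subgroup.zpowers w) := by
        rw [Subgroup.zpowers_le, Subgroup.mem_centralizer_iff]
        rintro _ ⟨n, rfl⟩
        have : Commute z w := by
          show z * w = w * z
          rw [mul_inv_eq_iff_eq_mul] at hzw
          exact hzw
        exact ((this.zpow_right n).eq).symm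
      exact (le_Cz_comm.1 h2) (Subgroup.mem_zpowers w)
    rw [h0] at h1
    exact Subgroup.mem_bot.1 h1
  have hdvd : r ^ (j + 1) ∣ Nat.card W - 1 := by
    apply semireg' hyW hr hy
    rw [← hz]; exact hWc
  obtain ⟨w, hw⟩ := IsPGroup.iff_card.1 (hVp.to_le hWV)
  have hw0 : 0 < w := by
    rcases Nat.eq_zero_or_pos w with h | h
    · exfalso
      rw [h, pow_zero] at hw
      exact hW1 (Subgroup.eq_bot_of_card_eq _ hw)
    · exact h
  refine ⟨w, hw0, ?_, ?_⟩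
  · rw [← hw]; exact hdvd
  · rw [← hw]
    have h5 : W ⊓ (V ⊓ Cz L) = ⊥ := by
      rw [eq_bot_iff, ← h0]
      rintro x ⟨hxW, hxV, hxL⟩
      refine ⟨⟨hxV, ?_⟩, hxW⟩
      show x ∈ Cz (Subgroup.zpowers z)
      have : Subgroup.zpowers z ≤ L := by rw [Subgroup.zpowers_le]; exact hzL
      exact Cz_anti this hxL
    have h6 : Nat.card W * Nat.card ↥(V ⊓ Cz L) ≤ Nat.card V := by
      have h7 : W ≤ Nz (V ⊓ Cz L) := by
        have hVV : V ≤ Cz V := by rw [← commutator_eq_bot_iff_le_Cz]; exact (Subgroup.commutator_self_eq_bot_iff).2 hV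
        exact (hWV.trans (hVV.trans (Cz_anti inf_le_left))).trans (Cz_le_Nz _)
      have h8 := Cfsg.Agent.H1.Basic.card_sup_mul_card_inf (H := W) (K := V ⊓ Cz L) h7
      rw [h5, Subgroup.card_bot, mul_one] at h8
      rw [← h8]
      exact Subgroup.card_le_of_le (sup_le hWV inf_le_left)
    have h9 : Nat.card ↥(V ⊓ Cz L) * (V ⊓ Cz L).relIndex V = Nat.card V := by
      have := Subgroup.card_mul_index ((V ⊓ Cz L).subgroupOf V)
      rwa [Nat.card_congr (Subgroup.subgroupOfEquivOfLe (inf_le_left : V ⊓ Cz L ≤ V)).toEquiv] at this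
    rw [← h9, mul_comm] at h6
    exact Nat.le_of_mul_le_mul_left h6 Nat.card_pos

/-- the main bound, non-faithful form -/
theorem main' [Fact p.Prime] [Finite G] {V H : Subgroup G} (hV : IsMulCommutative V) (hVp : IsPGroup p V) (hHV : H ≤ Nz V)
    {K : Type*} [Group K] (π : G →* K) (hπ : ∀ k : K, ∃ h ∈ H, π h = k) (hf : ∀ h ∈ H, h ∈ Cz V → π h = 1)
    {r k M : ℕ} (hr : r.Prime) (hrp : r ≠ p) (hk : 0 < k)
    (hprim : ∀ w : ℕ, 0 < w → r ^ k ∣ p ^ w - 1 → M ≤ w) {a : G} (ha : a ∈ H)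
    (hg : ∃ g : K, ∀ m : ℕ, (π a * (g * π a * g⁻¹)) ^ m = 1 → r ^ k ∣ m) :
    p ^ M ≤ (V ⊓ Subgroup.centralizer ({a} : Set G)).relIndex V ^ 2 ∧ p ^ M ≤ (V ⊓ Cz H).relIndex V := by
  obtain ⟨g, hg⟩ := hg
  obtain ⟨h, hhH, rfl⟩ := hπ g
  obtain ⟨u, hu⟩ : ∃ u : G, u = a * (h * a * h⁻¹) := ⟨_, rfl⟩
  have hupi : ∀ m : ℕ, π (u ^ m) = 1 → r ^ k ∣ m := by
    intro m hm
    apply hg
    rw [← map_inv, ← map_mul, ← map_mul, ← map_mul, ← hu, ← map_pow, hm]
  have hupos : 0 < orderOf u := orderOf_pos u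
  obtain ⟨e, b, hb, hjb⟩ := Nat.exists_eq_pow_mul_and_not_dvd hupos.ne' r hr.ne_one
  have hb0 : b ≠ 0 := by rintro rfl; exact hb (dvd_zero r)
  obtain ⟨y, hy⟩ : ∃ y : G, y = u ^ b := ⟨_, rfl⟩
  have hyo : orderOf y = r ^ e := by
    rw [hy, orderOf_pow' _ hb0, hjb, Nat.gcd_eq_right (Dvd.intro_left _ rfl), Nat.mul_div_cancel _ (Nat.pos_of_ne_zero hb0)]
  have hLH : Subgroup.closure {a, h * a * h⁻¹} ≤ H := by
    rw [Subgroup.closure_le]
    intro x hx
    rcases hx with rfl | hx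
    · exact ha
    · rw [Set.mem_singleton_iff] at hx
      rw [hx]; exact H.mul_mem (H.mul_mem hhH ha) (H.inv_mem hhH)
  have huL : u ∈ Subgroup.closure {a, h * a * h⁻¹} := by
    rw [hu]
    exact Subgroup.mul_mem _ (Subgroup.subset_closure (by simp)) (Subgroup.subset_closure (by simp))
  have hyL : y ∈ Subgroup.closure {a, h * a * h⁻¹} := by
    rw [hy]; exact Subgroup.pow_mem _ huL b
  -- `y ^ r ^ (k - 1)` acts nontrivially
  obtain ⟨k', rfl⟩ : ∃ k', k = k' + 1 := ⟨k - 1, by omega⟩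
  have hyf : y ^ r ^ k' ∉ Cz V := by
    intro hc
    have h1 : π (y ^ r ^ k') = 1 := hf _ (H.pow_mem (hLH hyL) _) hc
    rw [hy, ← pow_mul] at h1
    have h2 := hupi _ h1
    have h3 : r ^ (k' + 1) ∣ r ^ k' * b := by rwa [mul_comm]
    rw [pow_succ] at h3
    exact hb (Nat.dvd_of_mul_dvd_mul_left (pow_pos hr.pos k') h3)
  obtain ⟨w, hw, hdw, hle⟩ := bound' hV hVp (hLH.trans hHV) hr hrp hyL hyo hyf
  have hMw : M ≤ w := hprim w hw hdw
  have hpM : p ^ M ≤ (V ⊓ Cz (Subgroup.closure {a, h * a * h⁻¹})).relIndex V :=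
    (Nat.pow_le_pow_right (Fact.out : p.Prime).pos hMw).trans hle
  constructor
  · refine hpM.trans (two_bound.trans ?_)
    rw [relIndex_conj (hHV hhH), pow_two]
  · exact hpM.trans (relIndex_anti (Cz_anti hLH))

theorem trivial_bound' [Fact p.Prime] [Finite G] {V : Subgroup G} (hVp : IsPGroup p V) {a : G} (ha : a ∉ Cz V) :
    p ≤ (V ⊓ Subgroup.centralizer ({a} : Set G)).relIndex V := by
  obtain ⟨n, hn⟩ := IsPGroup.iff_card.1 hVp
  have h1 := Subgroup.relIndex_dvd_card (V ⊓ Subgroup.centralizer ({a} : Set G)) V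
  rw [hn, Nat.dvd_prime_pow Fact.out] at h1
  obtain ⟨m, -, hm⟩ := h1
  rw [hm]
  rcases Nat.eq_zero_or_pos m with rfl | hm0
  · exfalso
    rw [pow_zero, Subgroup.relIndex_eq_one] at hm
    apply ha
    rw [Subgroup.mem_centralizer_iff]
    intro v hv
    have := (hm hv).2
    exact (Subgroup.mem_centralizer_singleton_iff.1 this)
  · calc p = p ^ 1 := (pow_one p).symm
      _ ≤ p ^ m := Nat.pow_le_pow_right (Fact.out : p.Prime).pos hm0

/-- the bound for `PSL₂(q)` -/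
theorem psl_bound [Fact p.Prime] [Finite G] {F : Type*} [Field F] [Fintype F] {n : ℕ} (hF : Fintype.card F = p ^ n)
    (π : G →* Matrix.ProjectiveSpecialLinearGroup (Fin 2) F) (hπ : Function.Surjective π) {V : Subgroup G}
    (hV : IsMulCommutative V) (hVp : IsPGroup p V) (hVn : V.Normal) (hf : ∀ h ∈ Cz V, π h = 1) {a : G} {i : ℕ}
    (ha : a ^ p ^ i = 1) (ha1 : π a ≠ 1) :
    p ^ n ≤ (V ⊓ Subgroup.centralizer ({a} : Set G)).relIndex V ∧
      (¬ (n = 1 ∧ ∃ m : ℕ, p + 1 = 2 ^ m) → p ^ (2 * n) ≤ (V ⊓ Cz (⊤ : Subgroup G)).relIndex V) := by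
  have hp : p.Prime := Fact.out
  have hn : 0 < n := Nat.pos_of_ne_zero (charP_of_card hp hF).2
  by_cases hex : n = 1 ∧ ∃ m : ℕ, p + 1 = 2 ^ m
  · refine ⟨?_, fun h => absurd hex h⟩
    rw [hex.1, pow_one]
    exact trivial_bound' hVp (fun h => ha1 (hf a h))
  · obtain ⟨r, k, hr, hr2, hrp, hk, hd, hprim⟩ := exists_prim hp hn hex
    obtain ⟨g, hg⟩ := psl2_main hp hF hd (Nat.Coprime.pow_left k ((Nat.coprime_primes hr Nat.prime_two).2 hr2)) (π a) ha1
      (i := i) (by rw [← map_pow, ha, map_one])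
    have hVtop : (⊤ : Subgroup G) ≤ Nz V := by
      rw [Nz, Subgroup.normalizer_eq_top_iff.2 hVn]
    obtain ⟨h1, h2⟩ := main' hV hVp hVtop π (fun k => by
      obtain ⟨g, rfl⟩ := hπ k
      exact ⟨g, trivial, rfl⟩) (fun h _ hc => hf h hc) hr hrp hk hprim (a := a) trivial ⟨g, hg⟩
    refine ⟨?_, fun _ => h2⟩
    have h3 : (p ^ n) ^ 2 ≤ (V ⊓ Subgroup.centralizer ({a} : Set G)).relIndex V ^ 2 := by
      rw [← pow_mul, mul_comm]; exact h1
    exact (Nat.pow_le_pow_iff_left (two_ne_zero)).1 h3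

end Cfsg.Agent.H17.Ba
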