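import Cfsg.Agent.H17_SN
import Cfsg.Agent.H17_Quot
import Cfsg.Agent.H1_Subn2
import Cfsg.Agent.H1_Coprime2
import Cfsg.Agent.H2_Fusion2
import Cfsg.Agent.H11_Cores

set_option autoImplicit false
open Cfsg

/-! `p`-minimal groups. -/

namespace Cfsg.Agent.H17.PMin

universe u

open Cfsg.Agent.H17.Base

section basic

variable {P : Type*} [Group P] {p : ℕ}

/-- `M` contains all proper subgroups containing `S` -/
def Uq (S M : Subgroup P) : Prop := S ≤ M ∧ M ≠ ⊤ ∧ ∀ H : Subgroup P, S ≤ H → H ≠ ⊤ → H ≤ M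

theorem uq_of [Finite P] (hP : IsPMinimal p P) (S : Sylow p P) {M : Subgroup P} (hM : IsCoatom M)
    (hSM : (S : Subgroup P) ≤ M) : Uq (S : Subgroup P) M := by
  refine ⟨hSM, hM.1, ?_⟩
  intro H hSH hH
  obtain ⟨M', hM', hHM'⟩ := (eq_top_or_exists_le_coatom H).resolve_left hH
  obtain ⟨M₀, _, huniq⟩ := (hP S).2
  rw [huniq M ⟨hM, hSM⟩, ← huniq M' ⟨hM', hSH.trans hHM'⟩]
  exact hHM'

theorem exists_conj_norm {K L M : Subgroup P} (h : SN K M) (hLM : L ≤ M) (hML : M ≤ Nz L) (hK : ¬ K ≤ Nz L) :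
    ∃ g ∈ K, g ∉ Nz L ∧ cj g L ≤ Nz L := by
  induction h with
  | refl => exact absurd hML hK
  | step H M' a b c ih =>
    by_cases hM' : M' ≤ Nz L
    · exact ih (hLM.trans a) hM'
    · obtain ⟨g, hg, hgL⟩ := Set.not_subset.mp hM'
      refine ⟨g, c.le hg, hgL, ?_⟩
      have h1 : cj g L ≤ cj g H := Subgroup.map_mono hLM
      rw [mem_Nz_iff_cj.mp (b hg)] at h1
      exact h1.trans hML

theorem exists_normal_ge [Finite P] {S M : Subgroup P} (hu : Uq S M) : ∀ (n : ℕ) (L : Subgroup P),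
    Nat.card P - Nat.card L = n → SN ⊤ L → S ≤ Nz L → L ≤ M → ∃ N : Subgroup P, N.Normal ∧ L ≤ N ∧ N ≤ M := by
  intro n
  induction n using Nat.strong_induction_on with
  | _ n ih =>
    intro L hn hL hSL hLM
    by_cases hnorm : L.Normal
    · exact ⟨L, hnorm, le_rfl, hLM⟩
    have hNz : Nz L ≠ ⊤ := fun h => hnorm (Subgroup.normalizer_eq_top_iff.mp h)
    have hNzM : Nz L ≤ M := hu.2.2 _ hSL hNz
    obtain ⟨g, _, hgL, hg⟩ := exists_conj_norm hL le_rfl Subgroup.le_normalizer (fun h => hNz (top_le_iff.mp h))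
    let 𝒮 : Set (Subgroup P) := {K | (∃ g : P, K = cj g L) ∧ K ≤ Nz L}
    have h1 : (sSup 𝒮).IsSubnormal := by
      apply Cfsg.Agent.H1.Subn.sSup_subnormal
      rintro K ⟨⟨g, rfl⟩, _⟩
      rw [← sn_top_iff]
      have := hL.conj g
      have h2 : cj g (⊤ : Subgroup P) = ⊤ := Subgroup.map_top_of_surjective _ (MulAut.conj g).surjective
      rwa [h2] at this
    have hLe : L ≤ sSup 𝒮 := by
      apply le_sSup
      exact ⟨⟨1, (cj_one L).symm⟩, Subgroup.le_normalizer⟩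
    have hle : sSup 𝒮 ≤ Nz L := sSup_le fun K hK => hK.2
    have hS : S ≤ Nz (sSup 𝒮) := by
      have key : ∀ s ∈ S, cj s (sSup 𝒮) ≤ sSup 𝒮 := by
        intro s hs
        rw [cj_le_iff]
        apply sSup_le
        rintro K ⟨⟨g, rfl⟩, hK⟩
        rw [← cj_le_iff]
        apply le_sSup
        refine ⟨⟨s * g, by rw [cj_mul]⟩, ?_⟩
        have h3 : cj s (cj g L) ≤ cj s (Nz L) := Subgroup.map_mono hK
        rwa [cj_Nz, mem_Nz_iff_cj.mp (hSL hs)] at h3
      intro s hs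
      rw [mem_Nz_iff_cj]
      apply Subgroup.eq_of_le_of_card_ge (key s hs)
      rw [card_cj]
    have hlt : Nat.card L < Nat.card (sSup 𝒮 : Subgroup P) := by
      apply lt_of_le_of_ne (Subgroup.card_le_of_le hLe)
      intro hc
      have h4 : L = sSup 𝒮 := Subgroup.eq_of_le_of_card_ge hLe hc.ge
      have h5 : cj g L ≤ L := by
        have : cj g L ≤ sSup 𝒮 := le_sSup ⟨⟨g, rfl⟩, hg⟩
        rwa [← h4] at this
      apply hgL
      rw [mem_Nz_iff_cj]
      exact Subgroup.eq_of_le_of_card_ge h5 (by rw [card_cj])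
    have hcP : Nat.card (sSup 𝒮 : Subgroup P) ≤ Nat.card P := Subgroup.card_le_card_group _
    obtain ⟨N, hN, h6, h7⟩ := ih (Nat.card P - Nat.card (sSup 𝒮 : Subgroup P)) (by omega) _ rfl (sn_top_iff.mpr h1) hS
      (hle.trans hNzM)
    exact ⟨N, hN, hLe.trans h6, h7⟩

variable [Finite P] [Fact p.Prime]

theorem normal_inf_le {S : Sylow p P} {M : Subgroup P} (hu : Uq (S : Subgroup P) M) {N : Subgroup P}
    (hN : N.Normal) (hNM : N ≤ M) : (S : Subgroup P) ⊓ N ≤ pCore p P := by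
  have hT : (⊤ : Subgroup P) ≤ Nz N := by
    have : Nz N = ⊤ := Subgroup.normalizer_eq_top_iff.mpr hN
    rw [this]
  have h1 : IsSylowIn p ((S : Subgroup P) ⊓ N) N := (isSylowIn_coe S).inf_normal le_top hT
  have h2 := frattini_le (H := ⊤) h1 le_top hT
  have h3 : Nz ((S : Subgroup P) ⊓ N) = ⊤ := by
    by_contra hne
    have h4 : (S : Subgroup P) ≤ Nz ((S : Subgroup P) ⊓ N) :=
      (le_inf Subgroup.le_normalizer (le_top.trans hT)).trans (Nz_inf_le _ _)
    have h5 := hu.2.2 _ h4 hne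
    apply hu.2.1
    rw [eq_top_iff, ← h2]
    exact sup_le hNM (inf_le_right.trans h5)
  exact Cfsg.Agent.H11.Cores.le_pCore p (hN := Subgroup.normalizer_eq_top_iff.mp h3) (S.2.to_le inf_le_left)

theorem subnormal_inf_le {S : Sylow p P} {M : Subgroup P} (hu : Uq (S : Subgroup P) M) {N : Subgroup P}
    (hN : N.IsSubnormal) (hNM : N ≤ M) : N ⊓ (S : Subgroup P) ≤ pCore p P := by
  let 𝒮 : Set (Subgroup P) := {K | ∃ g ∈ (S : Subgroup P), K = cj g N}
  have h1 : (sSup 𝒮).IsSubnormal := by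
    apply Cfsg.Agent.H1.Subn.sSup_subnormal
    rintro K ⟨g, _, rfl⟩
    rw [← sn_top_iff]
    have := (sn_top_iff.mpr hN).conj g
    have h2 : cj g (⊤ : Subgroup P) = ⊤ := Subgroup.map_top_of_surjective _ (MulAut.conj g).surjective
    rwa [h2] at this
  have hle : N ≤ sSup 𝒮 := le_sSup ⟨1, Subgroup.one_mem _, (cj_one N).symm⟩
  have hM : sSup 𝒮 ≤ M := by
    apply sSup_le
    rintro K ⟨g, hg, rfl⟩
    have : cj g N ≤ cj g M := Subgroup.map_mono hNM
    rwa [cj_eq_of_mem (hu.1 hg)] at this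
  have hS : (S : Subgroup P) ≤ Nz (sSup 𝒮) := by
    intro s hs
    rw [mem_Nz_iff_cj]
    apply Subgroup.eq_of_le_of_card_ge
    · rw [cj_le_iff]
      apply sSup_le
      rintro K ⟨g, hg, rfl⟩
      rw [← cj_le_iff]
      exact le_sSup ⟨s * g, Subgroup.mul_mem _ hs hg, by rw [cj_mul]⟩
    · rw [card_cj]
  obtain ⟨N', hN', h2, h3⟩ := exists_normal_ge hu _ _ rfl (sn_top_iff.mpr h1) hS hM
  rw [inf_comm]
  exact (inf_le_inf_left _ (hle.trans h2)).trans (normal_inf_le hu hN' h3)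

omit [Finite P] in
theorem normal_dich {S : Sylow p P} {M : Subgroup P} (hu : Uq (S : Subgroup P) M) {N : Subgroup P}
    (hN : N.Normal) : pResidual p P ≤ N ∨ N ≤ M := by
  by_cases h : N ⊔ (S : Subgroup P) = ⊤
  · left
    have hq : IsPGroup p (P ⧸ N) := by
      have h1 : (S : Subgroup P).map (QuotientGroup.mk' N) = ⊤ := by
        rw [map_mk_eq_top_iff, sup_comm]; exact h
      have h2 : IsPGroup p ((S : Subgroup P).map (QuotientGroup.mk' N)) := S.2.map _
      rw [h1] at h2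
      exact h2.of_equiv Subgroup.topEquiv
    unfold pResidual
    rw [Subgroup.closure_le]
    intro x hx
    have hx' : (orderOf x).Coprime p := hx
    show x ∈ N
    rw [← QuotientGroup.eq_one_iff]
    obtain ⟨k, hk⟩ := (IsPGroup.iff_orderOf.mp hq) (x : P ⧸ N)
    have h3 : orderOf (x : P ⧸ N) ∣ orderOf x := orderOf_map_dvd (QuotientGroup.mk' N) x
    have h4 : (orderOf (x : P ⧸ N)).Coprime p := Nat.Coprime.coprime_dvd_left h3 hx'
    rw [hk] at h4
    rcases Nat.eq_zero_or_pos k with h5 | h5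
    · rw [h5, pow_zero, orderOf_eq_one_iff] at hk
      exact hk
    · exfalso
      have h6 := (Nat.coprime_pow_left_iff h5 _ _).mp h4
      rw [Nat.coprime_self] at h6
      exact (Fact.out : p.Prime).ne_one h6
  · right
    exact le_sup_left.trans (hu.2.2 _ le_sup_right h)

theorem res_not_le {S : Sylow p P} {M : Subgroup P} (hu : Uq (S : Subgroup P) M) : ¬ pResidual p P ≤ M := by
  intro h
  apply hu.2.1
  rw [eq_top_iff, ← Cfsg.Agent.H2.Fusion2.sup_pResidual S]
  exact sup_le hu.1 h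

end basic

/-- if `X = K S` with `K` a normal `p'`-subgroup and all proper overgroups of `S` in `M`, then two primes -/
theorem two_primes {X : Type*} [Group X] [Finite X] {p : ℕ} [Fact p.Prime] {S M K : Subgroup X} (hS : IsPGroup p S)
    (hu : Uq S M) (hK : K.Normal) (hKp : (Nat.card K).Coprime p) (hKS : K ⊔ S = ⊤) :
    ∃ r : ℕ, r.Prime ∧ ∃ R : Subgroup X, IsPGroup r R ∧ R ⊔ S = ⊤ ∧ S ≤ Nz R := by
  by_contra hcon
  push Not at hcon
  have hSK : S ≤ Nz K := by
    have : Nz K = ⊤ := Subgroup.normalizer_eq_top_iff.mpr hK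
    rw [this]; exact le_top
  have hcop : (Nat.card S).Coprime (Nat.card K) := by
    obtain ⟨n, hn⟩ := IsPGroup.iff_card.mp hS
    rw [hn]; exact (hKp.pow_right n).symm
  have hSsol : Group.IsSolvable S := by
    have := hS.isNilpotent
    infer_instance
  have h1 : M.subgroupOf K = ⊤ := by
    apply Cfsg.Agent.H1.Nilp.eq_top_of_sylow_le
    intro r hr
    obtain ⟨R, hR⟩ := Cfsg.Agent.H1.Coprime.invariant_sylow_exists S K hSK hcop (Or.inl hSsol) r
    refine ⟨R, ?_⟩
    have h2 := hcon r hr.out ((R : Subgroup K).map K.subtype) (R.2.map _)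
    have h3 : (R : Subgroup K).map K.subtype ⊔ S ≠ ⊤ := fun h => h2 h hR
    have h4 := hu.2.2 _ le_sup_right h3
    intro x hx
    exact h4 (Subgroup.mem_sup_left ⟨x, hx, rfl⟩)
  have h2 : K ≤ M := Subgroup.subgroupOf_eq_top.mp h1
  apply hu.2.1
  rw [eq_top_iff, ← hKS]
  exact sup_le h2 hu.1

end Cfsg.Agent.H17.PMin
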