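import Cfsg.Agent.H17_Ba1
import Cfsg.Agent.H17_Ba2
import Cfsg.Agent.H17_PMin
import Cfsg.Agent.H17_Tr5
import Cfsg.Agent.H17_Quot

/-! Baumann's configuration: `G/K ≅ PSL₂(q)`, `S` in a unique maximal subgroup -/

set_option autoImplicit false

namespace Cfsg.Agent.H17.Ba

open Cfsg Cfsg.Agent.H17.Base Cfsg.Agent.H17.Zig Cfsg.Agent.H17.PMin Cfsg.Agent.H17.Tr
open scoped commutatorElement

variable {G : Type*} [Group G] [Finite G] {p : ℕ} [Fact p.Prime]

/-- the configuration -/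
structure Cfg (p : ℕ) (n : ℕ) (F : Type*) [Field F] [Fintype F] (S M Q : Subgroup G)
    (π : G →* Matrix.ProjectiveSpecialLinearGroup (Fin 2) F) : Prop where
  hF : Fintype.card F = p ^ n
  hS : IsSylowIn p S ⊤
  hu : Uq S M
  hQ : Q = pCore p G
  hC : Cz Q ≤ Q
  hπ : Function.Surjective π

variable {n : ℕ} {F : Type*} [Field F] [Fintype F] {S M Q : Subgroup G}
  {π : G →* Matrix.ProjectiveSpecialLinearGroup (Fin 2) F}

namespace Cfg

variable (h : Cfg p n F S M Q π)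
include h

theorem charP : CharP F p := (charP_of_card Fact.out h.hF).1

theorem Qn : Q.Normal := by rw [h.hQ]; exact pCore_normal p G

theorem QS : Q ≤ S := by rw [h.hQ]; exact pCore_le_sylow h.hS.toSylowTop

theorem Qp : IsPGroup p Q := h.hS.isPGroup.to_le h.QS

omit [Finite G] in
theorem le_Nz_of {N : Subgroup G} (hN : N.Normal) (H : Subgroup G) : H ≤ Nz N := by
  have : Nz N = ⊤ := Subgroup.normalizer_eq_top_iff.mpr hN
  rw [this]; exact le_top

/-- the image of `S` -/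
theorem exists_P : ∃ P : Sylow p (Matrix.ProjectiveSpecialLinearGroup (Fin 2) F), (P : Subgroup _) = S.map π :=
  ⟨(h.hS.toSylowTop).mapSurjective h.hπ, rfl⟩

theorem ker_le : π.ker ≤ M := by
  have hch := h.charP
  rcases normal_dich (S := h.hS.toSylowTop) h.hu (N := π.ker) inferInstance with h1 | h1
  · exfalso
    obtain ⟨P, hP⟩ := h.exists_P
    apply sylow_ne_top P
    rw [hP, eq_top_iff]
    intro x _
    obtain ⟨g, rfl⟩ := h.hπ x
    have h2 : g ∈ (S ⊔ pResidual p G : Subgroup G) := by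
      have h3 : (S ⊔ pResidual p G : Subgroup G) = ⊤ := Cfsg.Agent.H2.Fusion2.sup_pResidual h.hS.toSylowTop
      rw [h3]; trivial
    have h4 : g ∈ (S ⊔ π.ker : Subgroup G) := (sup_le_sup_left h1 S) h2
    obtain ⟨a, ha, b, hb, rfl⟩ := (mem_sup_of_le_Nz (h.le_Nz_of (inferInstance : π.ker.Normal) S)).1 h4
    rw [map_mul, (MonoidHom.mem_ker).1 hb, mul_one]
    exact ⟨a, ha, rfl⟩
  · exact h1

theorem le_ker {N : Subgroup G} (hN : N.Normal) (hNM : N ≤ M) : N ≤ π.ker := by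
  have hch := h.charP
  obtain ⟨P, hP⟩ := h.exists_P
  have h1 : M.map π ≠ ⊤ := by
    intro h2
    apply h.hu.2.1
    rw [eq_top_iff]
    intro x _
    have h3 : π x ∈ M.map π := by rw [h2]; trivial
    obtain ⟨m, hm, hmx⟩ := h3
    have h4 : m⁻¹ * x ∈ π.ker := by rw [MonoidHom.mem_ker, map_mul, map_inv, hmx, inv_mul_cancel]
    have h5 := M.mul_mem hm (h.ker_le h4)
    rwa [mul_inv_cancel_left] at h5
  have h2 : (N.map π) = ⊥ := normal_eq_bot P (X := M.map π) (by rw [hP]; exact Subgroup.map_mono h.hu.1) h1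
    (hN.map π h.hπ) (Subgroup.map_mono hNM)
  intro x hx
  rw [MonoidHom.mem_ker, ← Subgroup.mem_bot, ← h2]
  exact ⟨x, hx, rfl⟩

theorem Q_le_ker : Q ≤ π.ker := h.le_ker h.Qn (h.QS.trans h.hu.1)

theorem inf_ker : S ⊓ π.ker = Q := by
  apply le_antisymm
  · rw [h.hQ]
    exact normal_inf_le (S := h.hS.toSylowTop) h.hu inferInstance h.ker_le
  · exact le_inf h.QS h.Q_le_ker

theorem card_S : Nat.card S = p ^ n * Nat.card Q := by
  have hch := h.charP
  obtain ⟨P, hP⟩ := h.exists_P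
  have h1 := card_sylow P
  rw [h.hF] at h1
  have h2 : Nat.card (S.map π) = p ^ n := by rw [← hP]; exact h1
  have h3 := Subgroup.card_mul_index ((π.comp S.subtype).ker)
  rw [← h3, Subgroup.index_ker, mul_comm]
  have h4 : (π.comp S.subtype).range = S.map π := by
    rw [MonoidHom.range_comp, Subgroup.range_subtype]
  rw [h4, h2]
  congr 1
  have h5 : (π.comp S.subtype).ker = Q.subgroupOf S := by
    ext x
    rw [MonoidHom.mem_ker, Subgroup.mem_subgroupOf, ← h.inf_ker]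
    constructor
    · intro hx
      exact ⟨x.2, hx⟩
    · intro hx
      exact hx.2
  rw [h5]
  exact Nat.card_congr (Subgroup.subgroupOfEquivOfLe h.QS).toEquiv

theorem comm_S : ⁅S, S⁆ ≤ Q := by
  have hch := h.charP
  obtain ⟨P, hP⟩ := h.exists_P
  have h1 := sylow_comm P
  rw [hP, ← Subgroup.map_commutator, Subgroup.map_eq_bot_iff] at h1
  rw [← h.inf_ker]
  exact le_inf (commutator_le_left_iff.2 Subgroup.le_normalizer) h1

theorem exists_gen : ∃ g : G, S ⊔ cj g S = ⊤ := by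
  have hch := h.charP
  obtain ⟨P, hP⟩ := h.exists_P
  obtain ⟨k, hk⟩ := Ba.exists_gen P
  obtain ⟨g, rfl⟩ := h.hπ k
  refine ⟨g, ?_⟩
  rw [hP, ← map_cj', ← Subgroup.map_sup] at hk
  by_contra hne
  have h1 := h.hu.2.2 _ le_sup_left hne
  apply h.hu.2.1
  rw [eq_top_iff]
  intro x _
  have h3 : π x ∈ (S ⊔ cj g S).map π := by rw [hk]; trivial
  obtain ⟨m, hm, hmx⟩ := h3
  have h4 : m⁻¹ * x ∈ π.ker := by rw [MonoidHom.mem_ker, map_mul, map_inv, hmx, inv_mul_cancel]
  have h5 := M.mul_mem (h1 hm) (h.ker_le h4)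
  rwa [mul_inv_cancel_left] at h5

/-- a normal subgroup is in `M` or contains `O^p(G)` -/
theorem dich {N : Subgroup G} (hN : N.Normal) : (pResidual p G ≤ N) ∨ N ≤ M :=
  normal_dich (S := h.hS.toSylowTop) h.hu hN

theorem S_res : S ⊔ pResidual p G = ⊤ := Cfsg.Agent.H2.Fusion2.sup_pResidual h.hS.toSylowTop

theorem inf_le_Q {N : Subgroup G} (hN : N.Normal) (hNM : N ≤ M) : S ⊓ N ≤ Q := by
  rw [h.hQ]; exact normal_inf_le (S := h.hS.toSylowTop) h.hu hN hNM

/-- if `X ≤ Z(S)`-like subgroup is centralised by `S` and `O^p(G)` it is central -/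
theorem central_of {X : Subgroup G} (hXS : S ≤ Cz X) (hX : pResidual p G ≤ Cz X) : X ≤ Cz (⊤ : Subgroup G) := by
  rw [← h.S_res]
  rw [le_Cz_comm]
  exact sup_le hXS hX

end Cfg

omit [Finite G] in
theorem normal_of_central {X : Subgroup G} (h : X ≤ Cz (⊤ : Subgroup G)) : X.Normal := by
  constructor
  intro x hx g
  have h1 := (Subgroup.mem_centralizer_iff.1 (h hx)) g trivial
  rw [h1, mul_inv_cancel_right]
  exact hx

/-- bound in terms of orders -/
theorem Cfg.bnd (h : Cfg p n F S M Q π) {V A : Subgroup G} (hV : V ≤ Cz V) (hVp : IsPGroup p V) (hVn : V.Normal)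
    (hf : Cz V ≤ M) (hAS : A ≤ S) (hAQ : ¬ A ≤ Q) :
    p ^ n * Nat.card ↥(V ⊓ Cz A) ≤ Nat.card V ∧
      (¬ (n = 1 ∧ ∃ m : ℕ, p + 1 = 2 ^ m) → p ^ (2 * n) * Nat.card ↥(V ⊓ Cz (⊤ : Subgroup G)) ≤ Nat.card V) := by
  obtain ⟨a, ha, haQ⟩ := Set.not_subset.1 hAQ
  have hVm : IsMulCommutative V := by
    rw [← Subgroup.commutator_self_eq_bot_iff]; exact commutator_eq_bot_iff_le_Cz.2 hV
  obtain ⟨i, hi⟩ := (h.hS.isPGroup) ⟨a, hAS ha⟩
  have hi' : a ^ p ^ i = 1 := congrArg Subtype.val hi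
  have hcn : (Cz V).Normal := by
    have : Nz V = ⊤ := Subgroup.normalizer_eq_top_iff.mpr hVn
    rw [← Subgroup.normalizer_eq_top_iff, eq_top_iff, ← this]
    exact Nz_le_Nz_Cz V
  have hker := h.le_ker hcn hf
  have hπa : π a ≠ 1 := by
    intro h1
    apply haQ
    show a ∈ Q
    rw [← h.inf_ker]
    exact ⟨hAS ha, h1⟩
  obtain ⟨h1, h2⟩ := psl_bound h.hF π h.hπ hVm hVp hVn (fun x hx => hker hx) hi' hπa
  have key : ∀ X : Subgroup G, Nat.card ↥(V ⊓ X) * (V ⊓ X).relIndex V = Nat.card V := by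
    intro X
    have := Subgroup.card_mul_index ((V ⊓ X).subgroupOf V)
    rwa [Nat.card_congr (Subgroup.subgroupOfEquivOfLe (inf_le_left : V ⊓ X ≤ V)).toEquiv] at this
  constructor
  · have h3 : Nat.card ↥(V ⊓ Cz A) ≤ Nat.card ↥(V ⊓ Subgroup.centralizer ({a} : Set G)) := by
      apply Subgroup.card_le_of_le
      apply inf_le_inf_left
      exact Subgroup.centralizer_le (by simpa using ha)
    calc p ^ n * Nat.card ↥(V ⊓ Cz A) ≤ (V ⊓ Subgroup.centralizer ({a} : Set G)).relIndex V * Nat.card ↥(V ⊓ Subgroup.centralizer ({a} : Set G)) :=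
          Nat.mul_le_mul h1 h3
      _ = Nat.card V := by rw [mul_comm]; exact key _
  · intro hex
    have h3 := h2 hex
    calc p ^ (2 * n) * Nat.card ↥(V ⊓ Cz (⊤ : Subgroup G)) ≤ (V ⊓ Cz (⊤ : Subgroup G)).relIndex V * Nat.card ↥(V ⊓ Cz (⊤ : Subgroup G)) :=
          Nat.mul_le_mul_right _ h3
      _ = Nat.card V := by rw [mul_comm]; exact key _

end Cfsg.Agent.H17.Ba
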