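import Cfsg.Agent.H17_Ba3

/-! Baumann's configuration: the dichotomy -/

set_option autoImplicit false

namespace Cfsg.Agent.H17.Ba

open Cfsg Cfsg.Agent.H17.Base Cfsg.Agent.H17.Zig Cfsg.Agent.H17.PMin Cfsg.Agent.H17.Tr
open scoped commutatorElement

variable {G : Type*} [Group G] [Finite G]

/-- `Z(S)` -/
abbrev ZS (S : Subgroup G) : Subgroup G := S ⊓ Cz S

/-- `Z(J(S))` -/
abbrev ZJ (S : Subgroup G) : Subgroup G := centerThompsonAOf S

omit [Finite G] in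
theorem AA_le {S A : Subgroup G} (hA : A ∈ AA S) : A ≤ S := hA.1

omit [Finite G] in
theorem AA_comm {S A : Subgroup G} (hA : A ∈ AA S) : A ≤ Cz A := by
  intro a ha
  rw [Subgroup.mem_centralizer_iff]
  exact fun b hb => hA.2.1 b hb a ha

omit [Finite G] in
theorem AA_le_J {S A : Subgroup G} (hA : A ∈ AA S) : A ≤ thompsonSubgroupAOf S := by
  rw [JA_eq]; exact le_sSup hA

/-- an abelian overgroup inside `S` is contained -/
theorem le_AA {S A X : Subgroup G} (hA : A ∈ AA S) (hXS : X ≤ S) (hX : X ≤ Cz X) (hXA : X ≤ Cz A) : X ≤ A := by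
  have h4 : A ⊔ X ≤ Cz (A ⊔ X) := by
    have h5 : A ≤ Cz A := AA_comm hA
    have h6 : A ≤ Cz X := le_Cz_comm.mp hXA
    have h8 : A ⊔ X ≤ Cz A := sup_le h5 hXA
    have h9 : A ⊔ X ≤ Cz X := sup_le h6 hX
    exact le_Cz_comm.mp (sup_le (le_Cz_comm.mp h8) (le_Cz_comm.mp h9))
  have hc := hA.2.2 (A ⊔ X) (sup_le hA.1 hXS) (by
    intro a ha b hb
    exact (Subgroup.mem_centralizer_iff.mp (h4 hb)) a ha)
  have h5 := Subgroup.eq_of_le_of_card_ge (le_sup_left : A ≤ A ⊔ X) hc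
  exact le_sup_right.trans h5.ge

theorem ZJ_le_AA {S A : Subgroup G} (hA : A ∈ AA S) : ZJ S ≤ A := by
  apply le_AA hA (inf_le_left.trans (JA_le S))
  · exact inf_le_right.trans (Cz_anti inf_le_left)
  · exact inf_le_right.trans (Cz_anti (AA_le_J hA))

theorem ZS_le_ZJ (S : Subgroup G) : ZS S ≤ ZJ S := by
  obtain ⟨A, hA⟩ := exists_AA S
  refine le_inf ((center_le_AA hA).trans (AA_le_J hA)) (inf_le_right.trans (Cz_anti (JA_le S)))

omit [Finite G] in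
theorem ZJ_le (S : Subgroup G) : ZJ S ≤ S := inf_le_left.trans (JA_le S)

omit [Finite G] in
theorem Nz_le_Nz_ZJ (S : Subgroup G) : Nz S ≤ Nz (ZJ S) := by
  refine (le_inf (Nz_le_Nz_JA S) ((Nz_le_Nz_JA S).trans (Nz_le_Nz_Cz _))).trans (Nz_inf_le _ _)

omit [Finite G] in
theorem ZJ_comm_AA {S A : Subgroup G} (hA : A ∈ AA S) : ZJ S ≤ Cz A := inf_le_right.trans (Cz_anti (AA_le_J hA))

omit [Finite G] in
theorem normal_iff_top {N : Subgroup G} : N.Normal ↔ (⊤ : Subgroup G) ≤ Nz N := by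
  rw [← Subgroup.normalizer_eq_top_iff, eq_top_iff]

omit [Finite G] in
theorem Cz_normal {N : Subgroup G} (h : N.Normal) : (Cz N).Normal :=
  normal_iff_top.2 ((normal_iff_top.1 h).trans (Nz_le_Nz_Cz N))

omit [Finite G] in
theorem inf_normal' {M N : Subgroup G} (h1 : M.Normal) (h2 : N.Normal) : (M ⊓ N).Normal :=
  normal_iff_top.2 ((le_inf (normal_iff_top.1 h1) (normal_iff_top.1 h2)).trans (Nz_inf_le _ _))

variable {p : ℕ} [Fact p.Prime] {n : ℕ} {F : Type*} [Field F] [Fintype F] {S M Q : Subgroup G}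
  {π : G →* Matrix.ProjectiveSpecialLinearGroup (Fin 2) F}

omit [Finite G] in
theorem cj_AA {S A Q : Subgroup G} (hA : A ∈ AA S) (hQ : Q.Normal) (hAQ : A ≤ Q) (hQS : Q ≤ S) (g : G) : cj g A ∈ AA S := by
  have h1 : cj g A ≤ Q := by
    have := cj_mono (g := g) hAQ
    rwa [cj_eq_of_normal g hQ] at this
  obtain ⟨h2, h3, h4⟩ := AA_cj g hA
  refine ⟨h1.trans hQS, h3, ?_⟩
  intro B hB hBc
  rw [card_cj]
  exact hA.2.2 B hB hBc

/-- the three cases -/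
theorem Cfg.tri (h : Cfg p n F S M Q π) : ZS S ≤ Cz (⊤ : Subgroup G) ∨ (S ⊓ Cz (ZJ S)).Normal ∨
    (Cz (Subgroup.normalClosure (ZS S : Set G)) ≤ M ∧ ∃ A ∈ AA S, ¬ A ≤ Q) := by
  have hSZ : S ≤ Cz (ZS S) := le_Cz_comm.1 inf_le_right
  by_cases hZ : pResidual p G ≤ Cz (ZS S)
  · exact Or.inl (h.central_of hSZ hZ)
  right
  by_cases hA : ∃ A ∈ AA S, ¬ A ≤ Q
  · right
    refine ⟨?_, hA⟩
    rcases h.dich (N := Cz (Subgroup.normalClosure (ZS S : Set G))) (Cz_normal Subgroup.normalClosure_normal) with h1 | h1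
    · exact absurd (h1.trans (Cz_anti Subgroup.subset_normalClosure)) hZ
    · exact h1
  · left
    push Not at hA
    have hJ : thompsonSubgroupAOf S = thompsonSubgroupAOf Q := by
      rw [JA_eq, JA_eq]
      congr 1
      obtain ⟨A₀, hA₀⟩ := exists_AA S
      ext A
      constructor
      · intro h1
        exact ⟨hA A h1, h1.2.1, fun B hB hBc => h1.2.2 B (hB.trans h.QS) hBc⟩
      · rintro ⟨h1, h2, h3⟩
        refine ⟨h1.trans h.QS, h2, fun B hB hBc => (hA₀.2.2 B hB hBc).trans (h3 _ (hA A₀ hA₀) hA₀.2.1)⟩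
    have hZJ : (ZJ S).Normal := by
      unfold ZJ centerThompsonAOf
      rw [hJ]
      have h1 : (thompsonSubgroupAOf Q).Normal := normal_iff_top.2 ((normal_iff_top.1 h.Qn).trans (Nz_le_Nz_JA Q))
      exact inf_normal' h1 (Cz_normal h1)
    rcases h.dich (N := Cz (ZJ S)) (Cz_normal hZJ) with h1 | h1
    · exact absurd (h1.trans (Cz_anti (ZS_le_ZJ S))) hZ
    · have h2 : S ⊓ Cz (ZJ S) = Q ⊓ Cz (ZJ S) := by
        apply le_antisymm
        · exact le_inf (h.inf_le_Q (Cz_normal hZJ) h1) inf_le_right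
        · exact inf_le_inf_right _ h.QS
      rw [h2]
      exact inf_normal' h.Qn (Cz_normal hZJ)

omit [Finite G] in
theorem Cz_inf_sup {X Y : Subgroup G} : Cz (X ⊔ Y) = Cz X ⊓ Cz Y := by
  apply le_antisymm (le_inf (Cz_anti le_sup_left) (Cz_anti le_sup_right))
  rw [le_Cz_comm]
  exact sup_le (le_Cz_comm.1 inf_le_left) (le_Cz_comm.1 inf_le_right)

/-- the structure in the main case -/
theorem Cfg.str (h : Cfg p n F S M Q π) (hZ : ¬ ZS S ≤ Cz (⊤ : Subgroup G)) {V W A : Subgroup G}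
    (hV : V = Subgroup.normalClosure (ZS S : Set G)) (hW : W = Subgroup.normalClosure (ZJ S : Set G))
    (hVM : Cz V ≤ M) (hA : A ∈ AA S) (hAQ : ¬ A ≤ Q) :
    V ≤ Q ∧ V ≤ Cz Q ∧ A ⊔ Q = S ∧ Nat.card V = p ^ n * Nat.card ↥(V ⊓ Cz A) ∧ V ≤ W ∧ W ≤ Cz W ∧ W ≤ Q ∧
    ∃ g : G, (A ⊔ cj g A) ⊔ Q = ⊤ ∧ W ≤ V ⊔ (W ⊓ Cz (A ⊔ cj g A)) := by
  have hp : p.Prime := Fact.out
  have hVn : V.Normal := by rw [hV]; exact Subgroup.normalClosure_normal
  have hWn : W.Normal := by rw [hW]; exact Subgroup.normalClosure_normal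
  have hZV : ZS S ≤ V := by rw [hV]; exact Subgroup.subset_normalClosure
  have hZQ : ZS S ≤ Q ⊓ Cz Q := by
    have h1 : ZS S ≤ Cz Q := inf_le_right.trans (Cz_anti h.QS)
    exact le_inf (h1.trans h.hC) h1
  have hVQ' : V ≤ Q ⊓ Cz Q := by
    rw [hV]
    have : (Q ⊓ Cz Q).Normal := inf_normal' h.Qn (Cz_normal h.Qn)
    exact Subgroup.normalClosure_le_normal hZQ
  have hVQ : V ≤ Q := hVQ'.trans inf_le_left
  have hVC : V ≤ Cz Q := hVQ'.trans inf_le_right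
  have hVV : V ≤ Cz V := hVC.trans (Cz_anti hVQ)
  have hVp : IsPGroup p V := h.Qp.to_le hVQ
  obtain ⟨b1, b2⟩ := h.bnd hVV hVp hVn hVM hA.1 hAQ
  have hAA := AA_comm hA
  -- the competitor
  obtain ⟨A', hA'⟩ : ∃ A', A' = (A ⊓ Q) ⊔ V := ⟨_, rfl⟩
  have hA'Q : A' ≤ Q := by rw [hA']; exact sup_le inf_le_right hVQ
  have hA'c : A' ≤ Cz A' := by
    rw [hA', Cz_inf_sup]
    refine sup_le (le_inf (inf_le_left.trans (hAA.trans (Cz_anti inf_le_left))) ?_) (le_inf ?_ hVV)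
    · exact inf_le_right.trans (le_Cz_comm.1 hVC)
    · exact hVC.trans (Cz_anti inf_le_right)
  have c1 : Nat.card A' * Nat.card ↥(A ⊓ V) = Nat.card ↥(A ⊓ Q) * Nat.card V := by
    have := Cfsg.Agent.H1.Basic.card_sup_mul_card_inf (H := A ⊓ Q) (K := V) (h.le_Nz_of hVn _)
    have h2 : (A ⊓ Q) ⊓ V = A ⊓ V := by
      apply le_antisymm
      · exact le_inf (inf_le_left.trans inf_le_left) inf_le_right
      · exact le_inf (le_inf inf_le_left (inf_le_right.trans hVQ)) inf_le_right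
    rw [h2, ← hA'] at this
    exact this
  have c2 : Nat.card A' ≤ Nat.card A := hA.2.2 A' (hA'Q.trans h.QS) (by
    intro a ha b hb
    exact (Subgroup.mem_centralizer_iff.mp (hA'c hb)) a ha)
  have c3 : Nat.card ↥(A ⊓ V) ≤ Nat.card ↥(V ⊓ Cz A) := by
    apply Subgroup.card_le_of_le
    exact le_inf inf_le_right (inf_le_left.trans hAA)
  have c4 : Nat.card ↥(A ⊔ Q) * Nat.card ↥(A ⊓ Q) = Nat.card A * Nat.card Q :=
    Cfsg.Agent.H1.Basic.card_sup_mul_card_inf (H := A) (K := Q) (h.le_Nz_of h.Qn _)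
  have c5 : Nat.card ↥(A ⊔ Q) ≤ p ^ n * Nat.card Q := by
    rw [← h.card_S]
    exact Subgroup.card_le_of_le (sup_le hA.1 h.QS)
  have p1 : 0 < Nat.card ↥(A ⊓ V) := Nat.card_pos
  have p2 : 0 < Nat.card ↥(A ⊓ Q) := Nat.card_pos
  have p3 : 0 < Nat.card Q := Nat.card_pos
  have p4 : 0 < p ^ n := pow_pos hp.pos n
  have d1 : Nat.card A ≤ p ^ n * Nat.card ↥(A ⊓ Q) := by
    apply Nat.le_of_mul_le_mul_right _ p3
    rw [← c4]
    calc Nat.card ↥(A ⊔ Q) * Nat.card ↥(A ⊓ Q) ≤ (p ^ n * Nat.card Q) * Nat.card ↥(A ⊓ Q) := Nat.mul_le_mul_right _ c5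
      _ = _ := by ring
  have d2 : Nat.card ↥(A ⊓ Q) * Nat.card V ≤ Nat.card A * Nat.card ↥(A ⊓ V) := by
    rw [← c1]; exact Nat.mul_le_mul_right _ c2
  have d3 : Nat.card A * Nat.card ↥(A ⊓ V) ≤ (p ^ n * Nat.card ↥(A ⊓ Q)) * Nat.card ↥(A ⊓ V) := Nat.mul_le_mul_right _ d1
  have d4 : (p ^ n * Nat.card ↥(A ⊓ Q)) * Nat.card ↥(A ⊓ V) ≤ (p ^ n * Nat.card ↥(A ⊓ Q)) * Nat.card ↥(V ⊓ Cz A) :=
    Nat.mul_le_mul_left _ c3
  have d5 : (p ^ n * Nat.card ↥(A ⊓ Q)) * Nat.card ↥(V ⊓ Cz A) ≤ Nat.card ↥(A ⊓ Q) * Nat.card V := by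
    calc (p ^ n * Nat.card ↥(A ⊓ Q)) * Nat.card ↥(V ⊓ Cz A) = Nat.card ↥(A ⊓ Q) * (p ^ n * Nat.card ↥(V ⊓ Cz A)) := by ring
      _ ≤ _ := Nat.mul_le_mul_left _ b1
  have e1 : Nat.card V = p ^ n * Nat.card ↥(V ⊓ Cz A) := by
    apply Nat.eq_of_mul_eq_mul_left p2
    have : Nat.card ↥(A ⊓ Q) * (p ^ n * Nat.card ↥(V ⊓ Cz A)) = (p ^ n * Nat.card ↥(A ⊓ Q)) * Nat.card ↥(V ⊓ Cz A) := by ring
    rw [this]
    exact le_antisymm (d2.trans (d3.trans d4)) d5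
  have e2 : Nat.card A = p ^ n * Nat.card ↥(A ⊓ Q) := by
    apply Nat.eq_of_mul_eq_mul_right p1
    exact le_antisymm d3 (d4.trans (d5.trans d2))
  have e3 : A ⊔ Q = S := by
    apply Subgroup.eq_of_le_of_card_ge (sup_le hA.1 h.QS)
    rw [h.card_S]
    apply Nat.le_of_mul_le_mul_right _ p2
    rw [c4, e2]
    apply le_of_eq; ring
  have e4 : Nat.card A' = Nat.card A := by
    apply Nat.eq_of_mul_eq_mul_right p1
    rw [c1]
    exact le_antisymm d2 (d3.trans (d4.trans d5))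
  have hA'A : A' ∈ AA S := by
    refine ⟨hA'Q.trans h.QS, ?_, ?_⟩
    · intro a ha b hb
      exact (Subgroup.mem_centralizer_iff.mp (hA'c hb)) a ha
    · intro B hB hBc
      rw [e4]; exact hA.2.2 B hB hBc
  have hVA' : V ≤ A' := by rw [hA']; exact le_sup_right
  have hWA' : W ≤ A' := by
    have h1 : W = Subgroup.closure (Group.conjugatesOfSet (ZJ S : Set G)) := by rw [hW]; rfl
    rw [h1, Subgroup.closure_le]
    intro x hx
    rw [Group.mem_conjugatesOfSet_iff] at hx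
    obtain ⟨z, hz, hzx⟩ := hx
    obtain ⟨c, hc⟩ := isConj_iff.1 hzx
    have h2 : z ∈ cj c⁻¹ A' := ZJ_le_AA (cj_AA hA'A h.Qn hA'Q h.QS c⁻¹) hz
    rw [mem_cj, inv_inv, hc] at h2
    exact h2
  have hZW : ZJ S ≤ W := by rw [hW]; exact Subgroup.subset_normalClosure
  have hVW : V ≤ W := by
    rw [hV]
    exact Subgroup.normalClosure_le_normal ((ZS_le_ZJ S).trans hZW)
  have hWW : W ≤ Cz W := hWA'.trans (hA'c.trans (Cz_anti hWA'))
  have hWQ : W ≤ Q := hWA'.trans hA'Q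
  obtain ⟨g, hg⟩ := h.exists_gen
  obtain ⟨H, hH⟩ : ∃ H, H = A ⊔ cj g A := ⟨_, rfl⟩
  have hHQ : H ⊔ Q = ⊤ := by
    rw [eq_top_iff, ← hg]
    refine sup_le ?_ ?_
    · rw [← e3, hH]; exact sup_le (le_sup_left.trans le_sup_left) le_sup_right
    · rw [← e3, cj_sup, cj_eq_of_normal g h.Qn, hH]; exact sup_le (le_sup_right.trans le_sup_left) le_sup_right
  have hVH : V ⊓ Cz H = V ⊓ Cz (⊤ : Subgroup G) := by
    rw [← hHQ, Cz_inf_sup]
    apply le_antisymm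
    · exact le_inf inf_le_left (le_inf inf_le_right (inf_le_left.trans hVC))
    · exact inf_le_inf_left _ inf_le_left
  -- the second bound
  have b3 : p ^ (2 * n) * Nat.card ↥(V ⊓ Cz H) ≤ Nat.card V := by
    by_cases hex : n = 1 ∧ ∃ m : ℕ, p + 1 = 2 ^ m
    · obtain ⟨rfl, -⟩ := hex
      have h1 : V ⊓ Cz H < V ⊓ Cz A := by
        apply lt_of_le_of_ne (inf_le_inf_left _ (Cz_anti (by rw [hH]; exact le_sup_left)))
        intro he
        apply hZ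
        have h2 : ZS S ≤ V ⊓ Cz A := le_inf hZV (inf_le_right.trans (Cz_anti hA.1))
        rw [← he, hVH] at h2
        exact h2.trans inf_le_right
      have h2 : p * Nat.card ↥(V ⊓ Cz H) ≤ Nat.card ↥(V ⊓ Cz A) := by
        obtain ⟨a, ha⟩ := IsPGroup.iff_card.1 (hVp.to_le (inf_le_left : V ⊓ Cz H ≤ V))
        obtain ⟨b, hb⟩ := IsPGroup.iff_card.1 (hVp.to_le (inf_le_left : V ⊓ Cz A ≤ V))
        have h3 : Nat.card ↥(V ⊓ Cz H) < Nat.card ↥(V ⊓ Cz A) := by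
          apply lt_of_le_of_ne (Subgroup.card_le_of_le h1.le)
          intro he
          exact h1.ne (Subgroup.eq_of_le_of_card_ge h1.le he.ge)
        rw [ha, hb] at h3 ⊢
        have h4 := (Nat.pow_lt_pow_iff_right hp.one_lt).1 h3
        rw [← pow_succ']
        exact Nat.pow_le_pow_right hp.pos h4
      rw [e1]
      calc p ^ (2 * 1) * Nat.card ↥(V ⊓ Cz H) = p ^ 1 * (p * Nat.card ↥(V ⊓ Cz H)) := by ring
        _ ≤ _ := Nat.mul_le_mul_left _ h2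
    · rw [hVH]; exact b2 hex
  -- the index of `C_W(A)`
  have w1 : Nat.card W ≤ p ^ n * Nat.card ↥(W ⊓ Cz A) := by
    have h1 : W ≤ V ⊔ (W ⊓ Cz A) := by
      intro x hx
      have h2 := hWA' hx
      rw [hA'] at h2
      obtain ⟨a, ha, v, hv, rfl⟩ := (mem_sup_of_le_Nz (h.le_Nz_of hVn (A ⊓ Q))).1 h2
      have haW : a ∈ W := by
        have := W.mul_mem hx (W.inv_mem (hVW hv))
        rwa [mul_inv_cancel_right] at this
      exact Subgroup.mul_mem _ (Subgroup.mem_sup_right ⟨haW, hAA ha.1⟩) (Subgroup.mem_sup_left hv)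
    have h2 := Cfsg.Agent.H1.Basic.card_sup_mul_card_inf (H := V) (K := W ⊓ Cz A)
      ((hVW.trans (hWW.trans (Cz_anti inf_le_left))).trans (Cz_le_Nz _))
    have h3 : V ⊓ (W ⊓ Cz A) = V ⊓ Cz A := by
      rw [← inf_assoc, inf_eq_left.2 hVW]
    rw [h3] at h2
    have h4 : Nat.card W ≤ Nat.card ↥(V ⊔ (W ⊓ Cz A)) := Subgroup.card_le_of_le h1
    have h5 : 0 < Nat.card ↥(V ⊓ Cz A) := Nat.card_pos
    apply Nat.le_of_mul_le_mul_right _ h5
    calc Nat.card W * Nat.card ↥(V ⊓ Cz A) ≤ Nat.card ↥(V ⊔ (W ⊓ Cz A)) * Nat.card ↥(V ⊓ Cz A) := Nat.mul_le_mul_right _ h4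
      _ = (p ^ n * Nat.card ↥(V ⊓ Cz A)) * Nat.card ↥(W ⊓ Cz A) := by rw [h2, e1]
      _ = _ := by ring
  have w2 : Nat.card ↥(W ⊓ Cz (cj g A)) = Nat.card ↥(W ⊓ Cz A) := by
    have : W ⊓ Cz (cj g A) = cj g (W ⊓ Cz A) := by
      rw [cj_inf, cj_Cz, cj_eq_of_normal g hWn]
    rw [this, card_cj]
  have hWH : W ⊓ Cz H = (W ⊓ Cz A) ⊓ (W ⊓ Cz (cj g A)) := by
    rw [hH, Cz_inf_sup]
    apply le_antisymm
    · exact le_inf (le_inf inf_le_left (inf_le_right.trans inf_le_left)) (le_inf inf_le_left (inf_le_right.trans inf_le_right))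
    · exact le_inf (inf_le_left.trans inf_le_left) (le_inf (inf_le_left.trans inf_le_right) (inf_le_right.trans inf_le_right))
  have w3 : Nat.card W ≤ p ^ (2 * n) * Nat.card ↥(W ⊓ Cz H) := by
    have h2 := Cfsg.Agent.H1.Basic.card_sup_mul_card_inf (H := W ⊓ Cz A) (K := W ⊓ Cz (cj g A))
      ((inf_le_left.trans (hWW.trans (Cz_anti inf_le_left))).trans (Cz_le_Nz _))
    rw [← hWH, w2] at h2
    have h3 : Nat.card ↥((W ⊓ Cz A) ⊔ (W ⊓ Cz (cj g A))) ≤ Nat.card W := Subgroup.card_le_of_le (sup_le inf_le_left inf_le_left)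
    have h4 : 0 < Nat.card W := Nat.card_pos
    apply Nat.le_of_mul_le_mul_right _ h4
    calc Nat.card W * Nat.card W ≤ (p ^ n * Nat.card ↥(W ⊓ Cz A)) * (p ^ n * Nat.card ↥(W ⊓ Cz A)) := Nat.mul_le_mul w1 w1
      _ = p ^ (2 * n) * (Nat.card ↥(W ⊓ Cz A) * Nat.card ↥(W ⊓ Cz A)) := by ring
      _ = p ^ (2 * n) * (Nat.card ↥((W ⊓ Cz A) ⊔ (W ⊓ Cz (cj g A))) * Nat.card ↥(W ⊓ Cz H)) := by rw [h2]
      _ ≤ p ^ (2 * n) * (Nat.card W * Nat.card ↥(W ⊓ Cz H)) := Nat.mul_le_mul_left _ (Nat.mul_le_mul_right _ h3)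
      _ = _ := by ring
  have w4 : W ≤ V ⊔ (W ⊓ Cz H) := by
    have h2 := Cfsg.Agent.H1.Basic.card_sup_mul_card_inf (H := V) (K := W ⊓ Cz H)
      ((hVW.trans (hWW.trans (Cz_anti inf_le_left))).trans (Cz_le_Nz _))
    have h3 : V ⊓ (W ⊓ Cz H) = V ⊓ Cz H := by
      rw [← inf_assoc, inf_eq_left.2 hVW]
    rw [h3] at h2
    have h4 : V ⊔ (W ⊓ Cz H) = W := by
      apply Subgroup.eq_of_le_of_card_ge (sup_le hVW inf_le_left)
      have h5 : 0 < Nat.card ↥(V ⊓ Cz H) := Nat.card_pos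
      apply Nat.le_of_mul_le_mul_right _ h5
      rw [h2]
      calc Nat.card W * Nat.card ↥(V ⊓ Cz H) ≤ (p ^ (2 * n) * Nat.card ↥(W ⊓ Cz H)) * Nat.card ↥(V ⊓ Cz H) := Nat.mul_le_mul_right _ w3
        _ = (p ^ (2 * n) * Nat.card ↥(V ⊓ Cz H)) * Nat.card ↥(W ⊓ Cz H) := by ring
        _ ≤ _ := Nat.mul_le_mul_right _ b3
    exact h4.ge
  exact ⟨hVQ, hVC, e3, e1, hVW, hWW, hWQ, g, by rw [← hH]; exact hHQ, by rw [← hH]; exact w4⟩

end Cfsg.Agent.H17.Ba
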