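import Cfsg.Agent.H17_Ba4

/-! Baumann's configuration: commutators and powers -/

set_option autoImplicit false

namespace Cfsg.Agent.H17.Ba

open Cfsg Cfsg.Agent.H17.Base Cfsg.Agent.H17.Zig Cfsg.Agent.H17.PMin Cfsg.Agent.H17.Tr
open scoped commutatorElement

variable {G : Type*} [Group G] [Finite G]

variable {p : ℕ} [Fact p.Prime] {n : ℕ} {F : Type*} [Field F] [Fintype F] {S M Q : Subgroup G}
  {π : G →* Matrix.ProjectiveSpecialLinearGroup (Fin 2) F}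

omit [Finite G] in
theorem comm_of_mem_Cz {X : Subgroup G} {x y : G} (hx : x ∈ X) (hy : y ∈ Cz X) : x * y = y * x :=
  (Subgroup.mem_centralizer_iff.1 hy) x hx

/-- the commutator statement -/
theorem Cfg.s2769 (h : Cfg p n F S M Q π) : (⁅ZJ S, S⁆ ⊓ ZS S).Normal ∨ (S ⊓ Cz (ZJ S)).Normal := by
  by_cases hZ : ZS S ≤ Cz (⊤ : Subgroup G)
  · exact Or.inl (normal_of_central (inf_le_right.trans hZ))
  rcases h.tri with h1 | h1 | ⟨hVM, A, hA, hAQ⟩
  · exact absurd h1 hZ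
  · exact Or.inr h1
  left
  obtain ⟨V, hV⟩ : ∃ V, V = Subgroup.normalClosure (ZS S : Set G) := ⟨_, rfl⟩
  obtain ⟨W, hW⟩ : ∃ W, W = Subgroup.normalClosure (ZJ S : Set G) := ⟨_, rfl⟩
  rw [← hV] at hVM
  obtain ⟨hVQ, hVC, hAQS, -, hVW, hWW, hWQ, g, hHQ, hWH⟩ := h.str hZ hV hW hVM hA hAQ
  have hVn : V.Normal := by rw [hV]; exact Subgroup.normalClosure_normal
  have hWn : W.Normal := by rw [hW]; exact Subgroup.normalClosure_normal
  have hZW : ZJ S ≤ W := by rw [hW]; exact Subgroup.subset_normalClosure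
  obtain ⟨H, hH⟩ : ∃ H, H = A ⊔ cj g A := ⟨_, rfl⟩
  rw [← hH] at hHQ hWH
  have hSJ : S ≤ Nz (ZJ S) := Subgroup.le_normalizer.trans (Nz_le_Nz_ZJ S)
  -- key computation
  have key : ∀ v ∈ V, ∀ w ∈ W, ∀ u ∈ Q, ⁅v * w, u⁆ = ⁅w, u⁆ := by
    intro v hv w hw u hu
    have h1 : v * u = u * v := (comm_of_mem_Cz hu (hVC hv)).symm
    have h2 : ⁅w, u⁆ ∈ W := by
      have : ⁅w, u⁆ = w * (u * w⁻¹ * u⁻¹) := by rw [commutatorElement_def]; group
      rw [this]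
      exact W.mul_mem hw (hWn.conj_mem _ (W.inv_mem hw) u)
    have h3 : v * ⁅w, u⁆ = ⁅w, u⁆ * v := comm_of_mem_Cz (hVW hv) (hWW h2)
    have h4 : ⁅v * w, u⁆ = v * ⁅w, u⁆ * v⁻¹ := by
      rw [commutatorElement_def, commutatorElement_def]
      have h5 : v⁻¹ * u⁻¹ = u⁻¹ * v⁻¹ := by rw [← mul_inv_rev, ← mul_inv_rev, h1]
      calc v * w * u * (v * w)⁻¹ * u⁻¹ = v * w * u * w⁻¹ * (v⁻¹ * u⁻¹) := by group
        _ = v * w * u * w⁻¹ * (u⁻¹ * v⁻¹) := by rw [h5]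
        _ = _ := by group
    rw [h4, h3, mul_inv_cancel_right]
  have hCH : ⁅ZJ S, S⁆ ≤ Cz H := by
    rw [Subgroup.commutator_le]
    intro z hz s hs
    rw [← hAQS] at hs
    obtain ⟨a, ha, u, hu, rfl⟩ := (mem_sup_of_le_Nz (h.le_Nz_of h.Qn A)).1 hs
    obtain ⟨v, hv, w, hw, rfl⟩ := (mem_sup_of_le_Nz' (h.le_Nz_of hVn (W ⊓ Cz H))).1 (hWH (hZW hz))
    have hvw : v * w = w * v := comm_of_mem_Cz (hVW hv) (hWW hw.1)
    have hau : ⁅v * w, a * u⁆ = ⁅w, u⁆ := by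
      have h1 : a * (v * w) = (v * w) * a := comm_of_mem_Cz ha (ZJ_comm_AA hA hz)
      have h2 : ⁅v * w, u⁆ ∈ ZJ S := by
        have : ⁅v * w, u⁆ = (v * w) * (u * (v * w)⁻¹ * u⁻¹) := by rw [commutatorElement_def]; group
        rw [this]
        exact (ZJ S).mul_mem hz ((Subgroup.mem_normalizer_iff.1 (hSJ (h.QS hu)) _).1 ((ZJ S).inv_mem hz))
      have h3 : a * ⁅v * w, u⁆ = ⁅v * w, u⁆ * a := comm_of_mem_Cz ha (ZJ_comm_AA hA h2)
      have h4 : ⁅v * w, a * u⁆ = a * ⁅v * w, u⁆ * a⁻¹ := by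
        rw [commutatorElement_def, commutatorElement_def]
        calc (v * w) * (a * u) * (v * w)⁻¹ * (a * u)⁻¹ = ((v * w) * a) * u * (v * w)⁻¹ * u⁻¹ * a⁻¹ := by group
          _ = (a * (v * w)) * u * (v * w)⁻¹ * u⁻¹ * a⁻¹ := by rw [h1]
          _ = _ := by group
      rw [h4, h3, mul_inv_cancel_right, key v hv w hw.1 u hu]
    rw [hau]
    -- the normal subgroup
    obtain ⟨T, hT⟩ : ∃ T, T = ⁅Subgroup.zpowers w, Q⁆ := ⟨_, rfl⟩
    have hwuT : ⁅w, u⁆ ∈ T := by rw [hT]; exact Subgroup.commutator_mem_commutator (Subgroup.mem_zpowers w) hu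
    have hTn : T.Normal := by
      rw [normal_iff_top, ← hHQ]
      refine sup_le ?_ ?_
      · rw [hT]
        refine (le_inf ?_ (h.le_Nz_of h.Qn H)).trans (Nz_commutator_le _ _)
        refine le_trans ?_ (Cz_le_Nz _)
        rw [le_Cz_comm, Subgroup.zpowers_le]
        exact hw.2
      · rw [hT]
        exact Subgroup.normalizer_commutator_ge_right _ _
    have hTZ : T ≤ ZJ S := by
      rw [hT, Subgroup.commutator_le]
      rintro _ ⟨k, rfl⟩ u' hu'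
      have h1 : (v * w) ^ k ∈ ZJ S := (ZJ S).zpow_mem hz k
      have h2 : (v * w) ^ k = v ^ k * w ^ k := (Commute.mul_zpow hvw k)
      have h3 : ⁅(v * w) ^ k, u'⁆ = ⁅w ^ k, u'⁆ := by
        rw [h2]; exact key _ (V.zpow_mem hv k) _ (W.zpow_mem hw.1 k) _ hu'
      show ⁅w ^ k, u'⁆ ∈ ZJ S
      rw [← h3]
      have : ⁅(v * w) ^ k, u'⁆ = (v * w) ^ k * (u' * ((v * w) ^ k)⁻¹ * u'⁻¹) := by rw [commutatorElement_def]; group
      rw [this]
      exact (ZJ S).mul_mem h1 ((Subgroup.mem_normalizer_iff.1 (hSJ (h.QS hu')) _).1 ((ZJ S).inv_mem h1))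
    have hAT : A ≤ Cz T := le_Cz_comm.1 (hTZ.trans (ZJ_comm_AA hA))
    have hHT : H ≤ Cz T := by
      rw [hH]
      refine sup_le hAT ?_
      have := cj_mono (g := g) hAT
      rwa [cj_eq_of_normal g (Cz_normal hTn)] at this
    exact (le_Cz_comm.1 hHT) hwuT
  apply normal_of_central
  have h1 : ⁅ZJ S, S⁆ ⊓ ZS S ≤ Cz H ⊓ Cz Q := le_inf (inf_le_left.trans hCH) (inf_le_right.trans (inf_le_right.trans (Cz_anti h.QS)))
  rwa [← Cz_inf_sup, hHQ] at h1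

/-- `Ω₁` of an abelian subgroup -/
def Om (p : ℕ) (V : Subgroup G) (hV : V ≤ Cz V) : Subgroup G where
  carrier := {v | v ∈ V ∧ v ^ p = 1}
  mul_mem' := by
    rintro a b ⟨ha, ha'⟩ ⟨hb, hb'⟩
    refine ⟨V.mul_mem ha hb, ?_⟩
    have h1 : Commute a b := comm_of_mem_Cz ha (hV hb)
    rw [h1.mul_pow, ha', hb', one_mul]
  one_mem' := ⟨V.one_mem, one_pow _⟩
  inv_mem' := by
    rintro a ⟨ha, ha'⟩
    exact ⟨V.inv_mem ha, by rw [inv_pow, ha', inv_one]⟩

theorem Om_le {V : Subgroup G} (hV : V ≤ Cz V) : Om p V hV ≤ V := fun _ hx => hx.1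

theorem Om_normal {V : Subgroup G} (hV : V ≤ Cz V) (hn : V.Normal) : (Om p V hV).Normal := by
  constructor
  rintro x ⟨hx, hx'⟩ g
  refine ⟨hn.conj_mem x hx g, ?_⟩
  rw [conj_pow, hx', mul_one, mul_inv_cancel]

/-- coprime elements centralising `Ω₁(V)` centralise `V` -/
theorem res_le_of_Om {V : Subgroup G} (hV : V ≤ Cz V) (hVp : IsPGroup p V) (hn : V.Normal)
    (h : pResidual p G ≤ Cz (Om p V hV)) : pResidual p G ≤ Cz V := by
  have hVm : IsMulCommutative V := by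
    rw [← Subgroup.commutator_self_eq_bot_iff]; exact commutator_eq_bot_iff_le_Cz.2 hV
  unfold pResidual
  rw [Subgroup.closure_le]
  intro x hx
  have hx' : (orderOf x).Coprime p := hx
  have hxO : x ∈ Cz (Om p V hV) := h (Subgroup.subset_closure hx)
  have hxV : Subgroup.zpowers x ≤ Nz V := by
    have : Nz V = ⊤ := Subgroup.normalizer_eq_top_iff.mpr hn
    rw [this]; exact le_top
  have hcop : (Nat.card (Subgroup.zpowers x)).Coprime (Nat.card V) := by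
    obtain ⟨k, hk⟩ := IsPGroup.iff_card.1 hVp
    rw [Nat.card_zpowers, hk]
    exact Nat.Coprime.pow_right _ hx'
  have h0 := Cfsg.Agent.H1.Coprime.inf_commutator_eq_bot_of_abelian (Subgroup.zpowers x) V hxV hcop
  by_cases h1 : ⁅V, Subgroup.zpowers x⁆ = ⊥
  · exact (commutator_eq_bot_iff_le_Cz'.1 h1) (Subgroup.mem_zpowers x)
  · exfalso
    have hle : ⁅V, Subgroup.zpowers x⁆ ≤ V := commutator_le_left_iff.2 hxV
    have hp : IsPGroup p ↥(⁅V, Subgroup.zpowers x⁆ : Subgroup G) := hVp.to_le hle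
    have hnt : Nontrivial ↥(⁅V, Subgroup.zpowers x⁆ : Subgroup G) := by
      rw [Subgroup.nontrivial_iff_ne_bot]; exact h1
    obtain ⟨k, hk0, hk⟩ := hp.nontrivial_iff_card.1 hnt
    obtain ⟨y, hy⟩ := exists_prime_orderOf_dvd_card' (G := ↥(⁅V, Subgroup.zpowers x⁆ : Subgroup G)) p (by rw [hk]; exact dvd_pow_self p hk0.ne')
    have hyp : (y : G) ^ p = 1 := by
      rw [← hy, ← Subgroup.orderOf_coe]
      exact pow_orderOf_eq_one _
    have hyO : (y : G) ∈ Om p V hV := ⟨hle y.2, hyp⟩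
    have h2 : (y : G) ∈ (V ⊓ Cz (Subgroup.zpowers x)) ⊓ ⁅V, Subgroup.zpowers x⁆ := by
      refine ⟨⟨hle y.2, ?_⟩, y.2⟩
      have h3 : Subgroup.zpowers x ≤ Cz (Om p V hV) := by rw [Subgroup.zpowers_le]; exact hxO
      exact (le_Cz_comm.1 h3) hyO
    rw [h0, Subgroup.mem_bot] at h2
    have h3 : y = 1 := Subtype.ext h2
    rw [h3, orderOf_one] at hy
    exact (Fact.out : p.Prime).one_lt.ne hy

/-- the power statement -/
theorem Cfg.s2770 (h : Cfg p n F S M Q π) : (powerClosure p 1 (ZS S)).Normal ∨ (S ⊓ Cz (ZJ S)).Normal := by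
  have hle : powerClosure p 1 (ZS S) ≤ ZS S := by
    unfold powerClosure
    rw [Subgroup.closure_le]
    rintro _ ⟨x, hx, rfl⟩
    exact (ZS S).pow_mem hx _
  by_cases hZ : ZS S ≤ Cz (⊤ : Subgroup G)
  · exact Or.inl (normal_of_central (hle.trans hZ))
  rcases h.tri with h1 | h1 | ⟨hVM, A, hA, hAQ⟩
  · exact absurd h1 hZ
  · exact Or.inr h1
  left
  obtain ⟨V, hV⟩ : ∃ V, V = Subgroup.normalClosure (ZS S : Set G) := ⟨_, rfl⟩
  obtain ⟨W, hW⟩ : ∃ W, W = Subgroup.normalClosure (ZJ S : Set G) := ⟨_, rfl⟩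
  rw [← hV] at hVM
  obtain ⟨hVQ, hVC, hAQS, hVc, hVW, hWW, hWQ, g, hHQ, hWH⟩ := h.str hZ hV hW hVM hA hAQ
  have hVn : V.Normal := by rw [hV]; exact Subgroup.normalClosure_normal
  have hZV : ZS S ≤ V := by rw [hV]; exact Subgroup.subset_normalClosure
  have hVV : V ≤ Cz V := hVC.trans (Cz_anti hVQ)
  have hVp : IsPGroup p V := h.Qp.to_le hVQ
  obtain ⟨U, hU⟩ : ∃ U, U = Om p V hVV := ⟨_, rfl⟩
  have hUV : U ≤ V := by rw [hU]; exact Om_le hVV
  have hUn : U.Normal := by rw [hU]; exact Om_normal hVV hVn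
  have hUM : Cz U ≤ M := by
    rcases h.dich (N := Cz U) (Cz_normal hUn) with h1 | h1
    · exfalso
      rw [hU] at h1
      exact res_not_le (S := h.hS.toSylowTop) h.hu ((res_le_of_Om hVV hVp hVn h1).trans hVM)
    · exact h1
  obtain ⟨b1, -⟩ := h.bnd (V := U) (hUV.trans (hVV.trans (Cz_anti hUV))) (hVp.to_le hUV) hUn hUM hA.1 hAQ
  have hVU : U ⊔ (V ⊓ Cz A) = V := by
    apply Subgroup.eq_of_le_of_card_ge (sup_le hUV inf_le_left)
    have h2 := Cfsg.Agent.H1.Basic.card_sup_mul_card_inf (H := U) (K := V ⊓ Cz A)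
      ((hUV.trans (hVV.trans (Cz_anti inf_le_left))).trans (Cz_le_Nz _))
    have h3 : U ⊓ (V ⊓ Cz A) = U ⊓ Cz A := by rw [← inf_assoc, inf_eq_left.2 hUV]
    rw [h3] at h2
    have h4 : 0 < Nat.card ↥(U ⊓ Cz A) := Nat.card_pos
    apply Nat.le_of_mul_le_mul_right _ h4
    rw [h2, hVc]
    calc p ^ n * Nat.card ↥(V ⊓ Cz A) * Nat.card ↥(U ⊓ Cz A) = (p ^ n * Nat.card ↥(U ⊓ Cz A)) * Nat.card ↥(V ⊓ Cz A) := by ring
      _ ≤ _ := Nat.mul_le_mul_right _ b1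
  obtain ⟨P, hP⟩ : ∃ P, P = powerClosure p 1 V := ⟨_, rfl⟩
  have hPn : P.Normal := by
    constructor
    intro x hx g
    rw [hP] at hx ⊢
    unfold powerClosure at hx ⊢
    induction hx using Subgroup.closure_induction with
    | mem y hy =>
      obtain ⟨v, hv, rfl⟩ := hy
      exact Subgroup.subset_closure ⟨g * v * g⁻¹, hVn.conj_mem v hv g, by rw [conj_pow]⟩
    | one => rw [mul_one, mul_inv_cancel]; exact Subgroup.one_mem _
    | mul a b _ _ iha ihb =>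
      have : g * (a * b) * g⁻¹ = (g * a * g⁻¹) * (g * b * g⁻¹) := by group
      rw [this]; exact Subgroup.mul_mem _ iha ihb
    | inv a _ iha =>
      have : g * a⁻¹ * g⁻¹ = (g * a * g⁻¹)⁻¹ := by group
      rw [this]; exact Subgroup.inv_mem _ iha
  have hPA : P ≤ Cz A := by
    rw [hP]
    unfold powerClosure
    rw [Subgroup.closure_le]
    rintro _ ⟨v, hv, rfl⟩
    rw [← hVU] at hv
    obtain ⟨u, hu, c, hc, rfl⟩ := (mem_sup_of_le_Nz' (h.le_Nz_of hUn (V ⊓ Cz A))).1 hv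
    have h1 : Commute u c := comm_of_mem_Cz (hUV hu) (hVV hc.1)
    rw [pow_one, h1.mul_pow]
    have h2 : u ^ p = 1 := by rw [hU] at hu; exact hu.2
    rw [h2, one_mul]
    exact (Cz A).pow_mem hc.2 p
  have hPV : P ≤ V := by
    rw [hP]
    unfold powerClosure
    rw [Subgroup.closure_le]
    rintro _ ⟨v, hv, rfl⟩
    exact V.pow_mem hv _
  apply normal_of_central
  have hAP : A ≤ Cz P := le_Cz_comm.1 hPA
  have h1 : (⊤ : Subgroup G) ≤ Cz P := by
    rw [← hHQ]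
    refine sup_le (sup_le hAP ?_) (le_Cz_comm.1 (hPV.trans hVC))
    have := cj_mono (g := g) hAP
    rwa [cj_eq_of_normal g (Cz_normal hPn)] at this
  refine le_trans ?_ (le_Cz_comm.1 h1)
  rw [hP]
  unfold powerClosure
  apply Subgroup.closure_mono
  rintro _ ⟨x, hx, rfl⟩
  exact ⟨x, hZV hx, rfl⟩

end Cfsg.Agent.H17.Ba
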