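import Cfsg.Agent.H17_Ba5

/-! Baumann's configuration: from the hypotheses of the statements; the normal closure of `C_S(Z(J(S)))` -/

set_option autoImplicit false

namespace Cfsg.Agent.H17.Ba

open Cfsg Cfsg.Agent.H17.Base Cfsg.Agent.H17.Zig Cfsg.Agent.H17.PMin Cfsg.Agent.H17.Tr
open scoped commutatorElement

variable {G : Type*} [Group G] [Finite G] {p : ℕ} [Fact p.Prime]

theorem exists_cfg (S : Sylow p G) (hE₁ : Subgroup.centralizer (Cfsg.pCore p G : Set G) ≤ Cfsg.pCore p G)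
    (hE₂ : ∃! M : Subgroup G, IsCoatom M ∧ (S : Subgroup G) ≤ M) (K : Subgroup G) [K.Normal] (F : Type*) [Field F]
    [Fintype F] (n : ℕ) (hF : Fintype.card F = p ^ n)
    (hE₃ : Nonempty (G ⧸ K ≃* Matrix.ProjectiveSpecialLinearGroup (Fin 2) F)) :
    ∃ (M : Subgroup G) (π : G →* Matrix.ProjectiveSpecialLinearGroup (Fin 2) F), Cfg p n F (S : Subgroup G) M (pCore p G) π := by
  obtain ⟨M, ⟨hM, hSM⟩, huniq⟩ := hE₂
  obtain ⟨e⟩ := hE₃
  refine ⟨M, e.toMonoidHom.comp (QuotientGroup.mk' K), hF, isSylowIn_coe S, ⟨hSM, hM.1, ?_⟩, rfl, hE₁, ?_⟩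
  · intro H hSH hH
    obtain ⟨M', hM', hHM'⟩ := (eq_top_or_exists_le_coatom H).resolve_left hH
    rw [← huniq M' ⟨hM', hSH.trans hHM'⟩]
    exact hHM'
  · rw [MonoidHom.coe_comp]
    exact e.surjective.comp (QuotientGroup.mk'_surjective K)

/-- focal subgroup argument, ambient -/
theorem foc {N P B Z : Subgroup G} (hP : IsSylowIn p P N) (hPc : P ≤ Cz P) (hBP : B ≤ P) (hZ : Z ≤ N ⊓ Cz N)
    (hPBZ : P ≤ B ⊔ Z) (hN : N ⊓ Nz P ≤ Nz B) (hNB : N ≤ B ⊔ ⁅N, N⁆) : P ≤ B := by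
  have hT : IsMulCommutative (hP.toSylow : Subgroup N) := by
    rw [hP.coe_toSylow]
    refine ⟨⟨fun a b => ?_⟩⟩
    apply Subtype.ext; apply Subtype.ext
    exact (comm_of_mem_Cz (Subgroup.mem_subgroupOf.1 a.2) (hPc (Subgroup.mem_subgroupOf.1 b.2)))
  have h1 := Cfsg.Agent.H2.Fusion2.focal_eq_of_abelian hP.toSylow hT
  rw [hP.coe_toSylow] at h1
  -- ambient form
  have h2 : ⁅N, N⁆ ⊓ P ≤ ⁅P, N ⊓ Nz P⁆ := by
    rintro x ⟨hx, hxP⟩
    have hxN : x ∈ N := hP.le hxP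
    have h3 : (⟨x, hxN⟩ : N) ∈ commutator N ⊓ P.subgroupOf N := by
      refine ⟨?_, hxP⟩
      have h4 : (commutator N).map N.subtype = ⁅N, N⁆ := by
        rw [_root_.commutator_def, Subgroup.map_commutator, ← MonoidHom.range_eq_map, Subgroup.range_subtype]
      rw [← h4] at hx
      obtain ⟨y, hy, hyx⟩ := hx
      have : y = ⟨x, hxN⟩ := Subtype.ext hyx
      rw [← this]; exact hy
    rw [h1] at h3
    have h5 : x ∈ (⁅P.subgroupOf N, Subgroup.normalizer ((P.subgroupOf N : Subgroup N) : Set N)⁆).map N.subtype := ⟨_, h3, rfl⟩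
    rw [Subgroup.map_commutator] at h5
    refine (Subgroup.commutator_mono ?_ ?_) h5
    · rw [Subgroup.subgroupOf_map_subtype]; exact inf_le_left
    · rintro _ ⟨y, hy, rfl⟩
      refine ⟨y.2, ?_⟩
      show (y : G) ∈ Nz P
      have hy' : y ∈ Subgroup.normalizer ((P.subgroupOf N : Subgroup N) : Set N) := hy
      rw [Subgroup.mem_normalizer_iff] at hy'
      apply mem_Nz_of_cj_le
      rintro _ ⟨z, hz, rfl⟩
      exact (hy' ⟨z, hP.le hz⟩).1 hz
  have h3 : ⁅P, N ⊓ Nz P⁆ ≤ B := by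
    rw [Subgroup.commutator_le]
    intro x hx m hm
    have hZn : ∀ z ∈ Z, ∀ m ∈ N, z * m = m * z := fun z hz m hm => (comm_of_mem_Cz hm (hZ hz).2).symm
    obtain ⟨b, hb, z, hz, rfl⟩ := (mem_sup_of_le_Nz (show B ≤ Nz Z from by
      refine le_trans ?_ (Cz_le_Nz Z)
      rw [le_Cz_comm]
      exact (hZ.trans inf_le_right).trans (Cz_anti (hBP.trans hP.le)))).1 (hPBZ hx)
    have h4 : ⁅b * z, m⁆ = b * (m * b⁻¹ * m⁻¹) := by
      rw [commutatorElement_def]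
      have h5 : z * m * z⁻¹ = m := by rw [hZn z hz m hm.1, mul_inv_cancel_right]
      calc b * z * m * (b * z)⁻¹ * m⁻¹ = b * (z * m * z⁻¹) * b⁻¹ * m⁻¹ := by group
        _ = _ := by rw [h5]; group
    rw [h4]
    exact B.mul_mem hb ((Subgroup.mem_normalizer_iff.1 (hN hm) _).1 (B.inv_mem hb))
  intro x hx
  have hBN : B ≤ Nz ⁅N, N⁆ := (hBP.trans hP.le).trans (Subgroup.normalizer_commutator_ge_right N N)
  obtain ⟨b, hb, c, hc, rfl⟩ := (mem_sup_of_le_Nz hBN).1 (hNB (hP.le hx))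
  refine B.mul_mem hb (h3 (h2 ⟨hc, ?_⟩))
  have := P.mul_mem (P.inv_mem (hBP hb)) hx
  rwa [inv_mul_cancel_left] at this

/-- the case of trivial `B ⊓ Q` -/
theorem nc_bot {S Q B N : Subgroup G} (hS : IsSylowIn p S ⊤) (hQn : Q.Normal) (hQS : Q ≤ S) (hBS : B ≤ S)
    (hBQ : B ⊓ Q = ⊥) (hS' : S ≤ B ⊔ Q) (hcS : ⁅S, S⁆ ≤ Q) (hNz : Nz S ≤ Nz B)
    (hN : N = Subgroup.normalClosure (B : Set G)) (hNQ : N ⊔ Q = ⊤) : S ⊓ N ≤ B := by
  have hNn : N.Normal := by rw [hN]; exact Subgroup.normalClosure_normal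
  have hBN : B ≤ N := by rw [hN]; exact Subgroup.subset_normalClosure
  have hQN : ∀ H : Subgroup G, H ≤ Nz Q := fun H => by
    have : Nz Q = ⊤ := Subgroup.normalizer_eq_top_iff.mpr hQn
    rw [this]; exact le_top
  have hNN : ∀ H : Subgroup G, H ≤ Nz N := fun H => by
    have : Nz N = ⊤ := Subgroup.normalizer_eq_top_iff.mpr hNn
    rw [this]; exact le_top
  have hSB : S ≤ Nz B := Subgroup.le_normalizer.trans hNz
  have hBcQ : B ≤ Cz Q := by
    rw [← commutator_eq_bot_iff_le_Cz, eq_bot_iff, ← hBQ]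
    exact le_inf (commutator_le_left_iff.2 (hQS.trans hSB)) (commutator_le_right_iff.2 (hQN B))
  have hBB : B ≤ Cz B := by
    rw [← commutator_eq_bot_iff_le_Cz, eq_bot_iff, ← hBQ]
    exact le_inf (commutator_le_left_iff.2 Subgroup.le_normalizer) ((Subgroup.commutator_mono hBS hBS).trans hcS)
  have hNcQ : N ≤ Cz Q := by
    rw [hN]
    have : (Cz Q).Normal := Cz_normal hQn
    exact Subgroup.normalClosure_le_normal hBcQ
  have hP : S ⊓ N ≤ B ⊔ (Q ⊓ N) := by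
    rintro x ⟨hx, hxN⟩
    obtain ⟨b, hb, u, hu, rfl⟩ := (mem_sup_of_le_Nz (hQN B)).1 (hS' hx)
    refine Subgroup.mul_mem_sup hb ⟨hu, ?_⟩
    have := N.mul_mem (N.inv_mem (hBN hb)) hxN
    rwa [inv_mul_cancel_left] at this
  apply foc (p := p) (N := N) (Z := Q ⊓ N) (hS.inf_normal le_top (hNN ⊤))
  · refine hP.trans (le_trans ?_ (Cz_anti hP))
    rw [Cz_inf_sup]
    have h1 : Q ⊓ N ≤ Cz B := inf_le_left.trans (le_Cz_comm.1 hBcQ)
    have h2 : Q ⊓ N ≤ Cz (Q ⊓ N) := inf_le_left.trans ((le_Cz_comm.1 hNcQ).trans (Cz_anti inf_le_right))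
    exact sup_le (le_inf hBB (le_Cz_comm.1 h1)) (le_inf h1 h2)
  · exact le_inf hBS hBN
  · exact le_inf inf_le_right (inf_le_left.trans (le_Cz_comm.1 hNcQ))
  · exact hP
  · rintro x ⟨hxN, hx⟩
    apply hNz
    have h1 : S = (S ⊓ N) ⊔ Q := by
      apply le_antisymm
      · exact hS'.trans (sup_le_sup_right (le_inf hBS hBN) Q)
      · exact sup_le inf_le_left hQS
    rw [mem_Nz_iff_cj, h1, cj_sup, cj_eq_of_mem_Nz hx, cj_eq_of_normal x hQn]
  · have h1 : N = Subgroup.closure (Group.conjugatesOfSet (B : Set G)) := by rw [hN]; rfl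
    rw [h1, Subgroup.closure_le, ← h1]
    intro x hx
    rw [Group.mem_conjugatesOfSet_iff] at hx
    obtain ⟨b, hb, hbx⟩ := hx
    obtain ⟨c, rfl⟩ := isConj_iff.1 hbx
    have hc : c ∈ N ⊔ Q := by rw [hNQ]; trivial
    obtain ⟨m, hm, u, hu, rfl⟩ := (mem_sup_of_le_Nz (hQN N)).1 hc
    have h2 : u * b * u⁻¹ ∈ B := (Subgroup.mem_normalizer_iff.1 (hSB (hQS hu)) _).1 hb
    have h3 : m * u * b * (m * u)⁻¹ = ⁅m, u * b * u⁻¹⁆ * (u * b * u⁻¹) := by
      rw [commutatorElement_def]; group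
    rw [h3]
    exact Subgroup.mul_mem _ (Subgroup.mem_sup_right (Subgroup.commutator_mem_commutator hm (hBN h2))) (Subgroup.mem_sup_left h2)

end Cfsg.Agent.H17.Ba
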