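import Cfsg.Agent.H17_Ba6

/-! Baumann's configuration: `C_S(Z(J(S)))` is a Sylow subgroup of its normal closure -/

set_option autoImplicit false

namespace Cfsg.Agent.H17.Ba

open Cfsg Cfsg.Agent.H17.Base Cfsg.Agent.H17.Zig Cfsg.Agent.H17.PMin Cfsg.Agent.H17.Tr
open scoped commutatorElement

variable {G : Type*} [Group G] [Finite G] {p : ℕ} [Fact p.Prime]

theorem nc {S Q B N : Subgroup G} (hS : IsSylowIn p S ⊤) (hQn : Q.Normal) (hQS : Q ≤ S) (hBS : B ≤ S)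
    (hD : (B ⊓ Q).Normal) (hS' : S ≤ B ⊔ Q) (hcS : ⁅S, S⁆ ≤ Q) (hNz : Nz S ≤ Nz B)
    (hN : N = Subgroup.normalClosure (B : Set G)) (hNQ : N ⊔ Q = ⊤) : S ⊓ N ≤ B := by
  obtain ⟨D, hDe⟩ : ∃ D, D = B ⊓ Q := ⟨_, rfl⟩
  rw [← hDe] at hD
  have hDB : D ≤ B := by rw [hDe]; exact inf_le_left
  let f := QuotientGroup.mk' D
  have hf : Function.Surjective f := QuotientGroup.mk'_surjective D
  have hker : ∀ {x y : G}, f x = f y → x⁻¹ * y ∈ D := fun {x y} h => QuotientGroup.eq.1 h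
  have hmem : ∀ {X : Subgroup G}, D ≤ X → ∀ {x : G}, f x ∈ X.map f → x ∈ X := by
    rintro X hX x ⟨y, hy, hyx⟩
    have := X.mul_mem hy (hX (hker hyx))
    rwa [mul_inv_cancel_left] at this
  have h1 := nc_bot (p := p) (S := S.map f) (Q := Q.map f) (B := B.map f) (N := N.map f) ?_ (hQn.map f hf)
    (Subgroup.map_mono hQS) (Subgroup.map_mono hBS) ?_ ?_ ?_ ?_ ?_ ?_
  · rintro x ⟨hxS, hxN⟩
    exact hmem hDB (h1 ⟨⟨x, hxS, rfl⟩, ⟨x, hxN, rfl⟩⟩)
  · have := hS.map_hom f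
    rwa [Subgroup.map_top_of_surjective f hf] at this
  · rw [eq_bot_iff]
    rintro _ ⟨hx, ⟨q, hq, rfl⟩⟩
    have h2 : q ∈ B := hmem hDB hx
    rw [Subgroup.mem_bot]
    show (QuotientGroup.mk q : G ⧸ D) = 1
    rw [QuotientGroup.eq_one_iff, hDe]
    exact ⟨h2, hq⟩
  · rw [← Subgroup.map_sup]; exact Subgroup.map_mono hS'
  · rw [← Subgroup.map_commutator]; exact Subgroup.map_mono hcS
  · intro y hy
    obtain ⟨x, rfl⟩ := hf y
    have h2 : x ∈ Nz S := by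
      apply mem_Nz_of_cj_le
      rintro _ ⟨s, hs, rfl⟩
      apply hmem (hDB.trans hBS)
      have h3 := (Subgroup.mem_normalizer_iff.1 hy (f s)).1 ⟨s, hs, rfl⟩
      rw [← map_inv, ← map_mul, ← map_mul] at h3
      exact h3
    have h3 := hNz h2
    apply mem_Nz_of_cj_le
    rw [← map_cj', cj_eq_of_mem_Nz h3]
  · rw [hN, Subgroup.map_normalClosure _ f hf]; rfl
  · rw [← Subgroup.map_sup, hNQ]; exact Subgroup.map_top_of_surjective f hf

variable {n : ℕ} {F : Type*} [Field F] [Fintype F] {S M Q : Subgroup G}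
  {π : G →* Matrix.ProjectiveSpecialLinearGroup (Fin 2) F}

theorem isSylowIn_self' {B : Subgroup G} (h : IsPGroup p B) : IsSylowIn p B B :=
  ⟨le_rfl, h, fun _ hQ _ hB => le_antisymm hQ hB⟩

/-- the normal closure statement -/
theorem Cfg.s2768 (h : Cfg p n F S M Q π) (hZn : ¬ (ZS S).Normal) :
    IsSylowIn p (S ⊓ Cz (ZJ S)) (Subgroup.normalClosure ((S ⊓ Cz (ZJ S) : Subgroup G) : Set G)) := by
  obtain ⟨B, hB⟩ : ∃ B, B = S ⊓ Cz (ZJ S) := ⟨_, rfl⟩
  rw [← hB]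
  have hBS : B ≤ S := by rw [hB]; exact inf_le_left
  have hBp : IsPGroup p B := h.hS.isPGroup.to_le hBS
  have hZ : ¬ ZS S ≤ Cz (⊤ : Subgroup G) := fun h1 => hZn (normal_of_central h1)
  rcases h.tri with h1 | h1 | ⟨hVM, A, hA, hAQ⟩
  · exact absurd h1 hZ
  · rw [← hB] at h1
    have h2 : Subgroup.normalClosure (B : Set G) = B := le_antisymm (Subgroup.normalClosure_le_normal le_rfl) Subgroup.subset_normalClosure
    rw [h2]
    exact isSylowIn_self' hBp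
  obtain ⟨V, hV⟩ : ∃ V, V = Subgroup.normalClosure (ZS S : Set G) := ⟨_, rfl⟩
  obtain ⟨W, hW⟩ : ∃ W, W = Subgroup.normalClosure (ZJ S : Set G) := ⟨_, rfl⟩
  rw [← hV] at hVM
  obtain ⟨hVQ, hVC, hAQS, hVc, hVW, hWW, hWQ, g, hHQ, hWH⟩ := h.str hZ hV hW hVM hA hAQ
  have hVn : V.Normal := by rw [hV]; exact Subgroup.normalClosure_normal
  have hWn : W.Normal := by rw [hW]; exact Subgroup.normalClosure_normal
  have hZW : ZJ S ≤ W := by rw [hW]; exact Subgroup.subset_normalClosure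
  obtain ⟨H, hH⟩ : ∃ H, H = A ⊔ cj g A := ⟨_, rfl⟩
  rw [← hH] at hHQ hWH
  have hSJ : S ≤ Nz (ZJ S) := Subgroup.le_normalizer.trans (Nz_le_Nz_ZJ S)
  -- `Z_J V` is normal
  have hJV : (ZJ S ⊔ V).Normal := by
    rw [normal_iff_top, ← hHQ]
    refine sup_le ?_ ((le_inf (h.QS.trans hSJ) (h.le_Nz_of hVn Q)).trans (Nz_sup_le _ _))
    have h2 : ZJ S ⊔ V = V ⊔ ((ZJ S ⊔ V) ⊓ Cz H) := by
      apply le_antisymm
      · intro x hx
        have hxW : x ∈ W := (sup_le hZW hVW) hx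
        obtain ⟨v, hv, w, hw, rfl⟩ := (mem_sup_of_le_Nz' (h.le_Nz_of hVn (W ⊓ Cz H))).1 (hWH hxW)
        refine Subgroup.mul_mem_sup hv ⟨?_, hw.2⟩
        have := (ZJ S ⊔ V).mul_mem ((ZJ S ⊔ V).inv_mem (Subgroup.mem_sup_right hv)) hx
        rwa [inv_mul_cancel_left] at this
      · exact sup_le le_sup_right inf_le_left
    rw [h2]
    refine (le_inf (h.le_Nz_of hVn H) ?_).trans (Nz_sup_le _ _)
    refine le_trans ?_ (Cz_le_Nz _)
    exact le_Cz_comm.1 inf_le_right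
  have hD : (B ⊓ Q).Normal := by
    have h2 : B ⊓ Q = Q ⊓ Cz (ZJ S ⊔ V) := by
      rw [hB, Cz_inf_sup]
      apply le_antisymm
      · refine le_inf inf_le_right (le_inf (inf_le_left.trans inf_le_right) ?_)
        exact inf_le_right.trans (le_Cz_comm.1 hVC)
      · exact le_inf (le_inf (inf_le_left.trans h.QS) (inf_le_right.trans inf_le_left)) inf_le_left
    rw [h2]
    exact inf_normal' h.Qn (Cz_normal hJV)
  have hAB : A ≤ B := by
    rw [hB]
    exact le_inf hA.1 (le_Cz_comm.1 (ZJ_comm_AA hA))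
  obtain ⟨N, hN⟩ : ∃ N, N = Subgroup.normalClosure (B : Set G) := ⟨_, rfl⟩
  have hBN : B ≤ N := by rw [hN]; exact Subgroup.subset_normalClosure
  have hNn : N.Normal := by rw [hN]; exact Subgroup.normalClosure_normal
  have hNQ : N ⊔ Q = ⊤ := by
    rw [eq_top_iff, ← hHQ, hH]
    refine sup_le (sup_le ?_ ?_) le_sup_right
    · exact (hAB.trans hBN).trans le_sup_left
    · have := cj_mono (g := g) (hAB.trans hBN)
      rw [cj_eq_of_normal g hNn] at this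
      exact this.trans le_sup_left
  have hNz : Nz S ≤ Nz B := by
    rw [hB]
    refine (le_inf le_rfl ((Nz_le_Nz_ZJ S).trans (Nz_le_Nz_Cz _))).trans (Nz_inf_le _ _)
  have h3 := nc h.hS h.Qn h.QS hBS hD (by
    calc S = A ⊔ Q := hAQS.symm
      _ ≤ B ⊔ Q := sup_le_sup_right hAB Q) h.comm_S hNz hN hNQ
  have h4 : S ⊓ N = B := le_antisymm h3 (le_inf hBS hBN)
  rw [← hN]
  have h5 := h.hS.inf_normal (N := N) le_top (h.le_Nz_of hNn ⊤)
  rwa [h4] at h5

end Cfsg.Agent.H17.Ba
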