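import Cfsg.Agent.H17_CommN
import Cfsg.Agent.H1_Coprime2
import Cfsg.Agent.H1_Partition

set_option autoImplicit false
open Cfsg

/-! Coprime action lemmas. -/

namespace Cfsg.Agent.H17.Cop

open Cfsg.Agent.H17.Base

theorem comm_eq_bot_of_le {G : Type*} [Group G] [Finite G] {p : ℕ} [Fact p.Prime] (P A B : Subgroup G)
    (hP : IsPGroup p ↥P) (hA : IsPGroup p ↥A) (hB : ¬ p ∣ Nat.card ↥B)
    (hnA : A ≤ Nz P) (hnB : B ≤ Nz P)
    (hAB : ⁅A, B⁆ = ⊥) (hcomm : ⁅P, B⁆ ≤ ⁅P, A⁆) : ⁅P, B⁆ = ⊥ := by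
  by_contra hne
  set R := ⁅P, B⁆ with hR
  set T := P ⊔ A with hT
  have hTp : IsPGroup p T := hP.to_sup_of_normal_left' hA hnA
  have hTnil : Group.IsNilpotent T := hTp.isNilpotent
  have hRP : R ≤ P := Subgroup.le_normalizer_iff_commutator_le_left.mp hnB
  have hAB' : A ≤ Cz B := (Subgroup.commutator_eq_bot_iff_le_centralizer).mp hAB
  have hcop : (Nat.card B).Coprime (Nat.card P) := by
    obtain ⟨n, hn⟩ := IsPGroup.iff_card.mp hP
    rw [hn]
    exact (((Nat.Prime.coprime_iff_not_dvd Fact.out).mpr hB).symm).pow_right n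
  have hPsol : Group.IsSolvable P := by
    have := hP.isNilpotent
    infer_instance
  have hPR : P ≤ Nz R := Subgroup.normalizer_commutator_ge_left _ _
  have hBR : B ≤ Nz R := Subgroup.normalizer_commutator_ge_right _ _
  have hAR : A ≤ Nz R := (le_inf hnA (hAB'.trans (Cz_le_Nz B))).trans (Nz_commutator_le P B)
  have hTR : T ≤ Nz R := sup_le hPR hAR
  have hBT : B ≤ Nz T := (le_inf hnB ((le_Cz_comm.mp hAB').trans (Cz_le_Nz A))).trans (Nz_sup_le P A)
  set N := ⁅R, T⁆ with hN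
  have hTN : T ≤ Nz N := Subgroup.normalizer_commutator_ge_right _ _
  have hBN : B ≤ Nz N := (le_inf hBR hBT).trans (Nz_commutator_le R T)
  have hNR : N ≤ R := Subgroup.le_normalizer_iff_commutator_le_left.mp hTR
  set C := P ⊓ Cz B with hC
  have hRC : R ⊔ C = P := Cfsg.Agent.H1.Coprime.commutator_sup_centralizer B P hnB hcop (Or.inr hPsol)
  have hRR : ⁅R, B⁆ = R := Cfsg.Agent.H1.Coprime.commutator_commutator_eq B P hnB hcop (Or.inr hPsol)
  set D := C ⊔ N with hD
  have hAC : A ≤ Nz C := (le_inf hnA ((hAB'.trans (Cz_le_Nz B)).trans (Nz_le_Nz_Cz B))).trans (Nz_inf_le P (Cz B))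
  have hPT : P ≤ T := le_sup_left
  have hAT : A ≤ T := le_sup_right
  have hDT : D ≤ T := sup_le (inf_le_left.trans hPT) ((hNR.trans hRP).trans hPT)
  have hRD : R ≤ Nz D := by
    rw [Subgroup.le_normalizer_iff_commutator_le_right]
    exact (Subgroup.commutator_mono le_rfl hDT).trans le_sup_right
  have hCD : C ≤ Nz D := le_sup_left.trans Subgroup.le_normalizer
  have hAD : A ≤ Nz D := (le_inf hAC (hAT.trans hTN)).trans (Nz_sup_le C N)
  have h1 : ⁅P, A⁆ ≤ D := by
    rw [← hRC]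
    apply sup_comm_le' hRD hCD hAD
    · exact (Subgroup.commutator_mono le_rfl hAT).trans le_sup_right
    · exact (Subgroup.le_normalizer_iff_commutator_le_left.mp hAC).trans le_sup_left
  have h2 : ⁅D, B⁆ ≤ N := by
    apply sup_comm_le' ((inf_le_left.trans hPT).trans hTN) Subgroup.le_normalizer hBN
    · have : ⁅C, B⁆ = ⊥ := by
        rw [Subgroup.commutator_eq_bot_iff_le_centralizer]
        exact inf_le_right
      rw [this]; exact bot_le
    · exact Subgroup.le_normalizer_iff_commutator_le_left.mp hBN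
  have h3 : R ≤ N := by
    calc R = ⁅R, B⁆ := hRR.symm
      _ ≤ ⁅D, B⁆ := Subgroup.commutator_mono (hcomm.trans h1) le_rfl
      _ ≤ N := h2
  exact Cfsg.Agent.H1.Coprime.commutator_lt_of_nilpotent hTnil (hRP.trans hPT) hne h3

/-- elements of `Nz W` acting trivially on `E / W` -/
def triv {G : Type*} [Group G] (E W : Subgroup G) [E.Normal] : Subgroup G where
  carrier := {g | g ∈ Nz W ∧ ∀ e ∈ E, g * e * g⁻¹ * e⁻¹ ∈ W}
  one_mem' := ⟨Subgroup.one_mem _, fun e _ => by simp⟩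
  mul_mem' := by
    rintro x y ⟨hx1, hx2⟩ ⟨hy1, hy2⟩
    refine ⟨Subgroup.mul_mem _ hx1 hy1, fun e he => ?_⟩
    have h1 := (Subgroup.mem_normalizer_iff.mp hx1 _).mp (hy2 e he)
    have h2 := W.mul_mem h1 (hx2 e he)
    have e1 : x * (y * e * y⁻¹ * e⁻¹) * x⁻¹ * (x * e * x⁻¹ * e⁻¹) = x * y * e * (x * y)⁻¹ * e⁻¹ := by group
    rwa [e1] at h2
  inv_mem' := by
    rintro x ⟨hx1, hx2⟩
    refine ⟨Subgroup.inv_mem _ hx1, fun e he => ?_⟩
    have h1 : x⁻¹ * e * x ∈ E := by
      have := (inferInstance : E.Normal).conj_mem e he x⁻¹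
      rwa [inv_inv] at this
    have h2 := W.inv_mem (hx2 _ h1)
    have e1 : (x * (x⁻¹ * e * x) * x⁻¹ * (x⁻¹ * e * x)⁻¹)⁻¹ = x⁻¹ * e * x⁻¹⁻¹ * e⁻¹ := by group
    rwa [e1] at h2

theorem mem_triv {G : Type*} [Group G] {E W : Subgroup G} [E.Normal] {g : G} :
    g ∈ triv E W ↔ g ∈ Nz W ∧ ∀ e ∈ E, g * e * g⁻¹ * e⁻¹ ∈ W := Iff.rfl

theorem conj_mem_triv {G : Type*} [Group G] {E W : Subgroup G} [E.Normal] {g r : G} (hg : g ∈ triv E W)
    (hr : r ∈ Nz W) : r * g * r⁻¹ ∈ triv E W := by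
  refine ⟨Subgroup.mul_mem _ (Subgroup.mul_mem _ hr hg.1) (Subgroup.inv_mem _ hr), fun e he => ?_⟩
  have h1 : r⁻¹ * e * r ∈ E := by
    have := (inferInstance : E.Normal).conj_mem e he r⁻¹
    rwa [inv_inv] at this
  have h2 := (Subgroup.mem_normalizer_iff.mp hr _).mp (hg.2 _ h1)
  have e1 : r * (g * (r⁻¹ * e * r) * g⁻¹ * (r⁻¹ * e * r)⁻¹) * r⁻¹ = r * g * r⁻¹ * e * (r * g * r⁻¹)⁻¹ * e⁻¹ := by group
  rwa [e1] at h2

theorem comm_le_Cz {G : Type*} [Group G] [Finite G] {p : ℕ} [Fact p.Prime] (E : Subgroup G) [hEn : E.Normal]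
    (hE : IsPGroup p ↥E) (U : Subgroup G) (hU : Cfsg.IsElementaryAbelian p U) (hnc : ¬ IsCyclic ↥U)
    (hcond : (∀ u ∈ U, u ≠ 1 → E ⊓ Subgroup.centralizer (U : Set G) = E ⊓ Subgroup.centralizer ({u} : Set G)) ∨
      (∀ u ∈ U, u ≠ 1 → ⁅E, U⁆ = ⁅E, Subgroup.zpowers u⁆)) (R : Subgroup G) (hR : ¬ p ∣ Nat.card ↥R)
    (hRU : U ≤ Nz R) : ⁅R, U⁆ ≤ Cz E := by
  have hUp : IsPGroup p U := by
    intro u
    exact ⟨1, Subtype.ext (by rw [pow_one]; exact hU.2 u u.2)⟩
  have hcopR : (Nat.card R).Coprime p := ((Nat.Prime.coprime_iff_not_dvd Fact.out).mpr hR).symm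
  have hcop : (Nat.card U).Coprime (Nat.card R) := by
    obtain ⟨n, hn⟩ := IsPGroup.iff_card.mp hUp
    rw [hn]
    exact (hcopR.pow_right n).symm
  have hUc : ∀ a ∈ U, ∀ b ∈ U, a * b = b * a := by
    intro a ha b hb
    have := hU.1
    exact congrArg Subtype.val (mul_comm' (⟨a, ha⟩ : U) ⟨b, hb⟩)
  have hnE : ∀ X : Subgroup G, X ≤ Nz E := by
    intro X
    have : Nz E = ⊤ := Subgroup.normalizer_eq_top_iff.mpr hEn
    rw [this]
    exact le_top
  have hzp : ∀ u : G, Cz (Subgroup.zpowers u) = Subgroup.centralizer ({u} : Set G) := by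
    intro u
    show Subgroup.centralizer ((Subgroup.zpowers u : Subgroup G) : Set G) = _
    rw [Subgroup.zpowers_eq_closure, Subgroup.centralizer_closure]
  have key : ∀ u ∈ U, u ≠ 1 → ⁅R ⊓ Subgroup.centralizer ({u} : Set G), U⁆ ≤ Cz E := by
    intro u hu hu1
    set Ru := R ⊓ Subgroup.centralizer ({u} : Set G) with hRu
    have hUu : U ≤ Subgroup.centralizer ({u} : Set G) := by
      intro a ha
      rw [Subgroup.mem_centralizer_singleton_iff]
      exact hUc a ha u hu
    have hURu : U ≤ Nz Ru := (le_inf hRU (hUu.trans Subgroup.le_normalizer)).trans (Nz_inf_le _ _)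
    set Q := ⁅Ru, U⁆ with hQ
    have hQRu : Q ≤ Ru := Subgroup.le_normalizer_iff_commutator_le_left.mp hURu
    have hQcop : (Nat.card Q).Coprime p :=
      Nat.Coprime.coprime_dvd_left (Subgroup.card_dvd_of_le (hQRu.trans inf_le_left)) hcopR
    have huz : Subgroup.zpowers u ≤ Cz Q := by
      rw [le_Cz_comm, hzp]
      exact hQRu.trans inf_le_right
    have hzP : IsPGroup p (Subgroup.zpowers u) := hUp.to_le (by rwa [Subgroup.zpowers_le])
    rcases hcond with hc | hc
    · have hF := hc u hu hu1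
      set F := E ⊓ Subgroup.centralizer ({u} : Set G) with hFd
      apply Cfsg.Agent.H1.Coprime.p_times_q p (Subgroup.zpowers u) Q E hzP hQcop hE huz (hnE _) (hnE _)
      show E ⊓ Cz (Subgroup.zpowers u) ≤ Cz Q
      rw [hzp, ← hFd, le_Cz_comm, ← Subgroup.commutator_eq_bot_iff_le_centralizer]
      have hFU : ⁅F, U⁆ = ⊥ := by
        rw [Subgroup.commutator_eq_bot_iff_le_centralizer, ← hF]
        exact inf_le_right
      have hRF : Ru ≤ Nz F := (le_inf (hnE _) (inf_le_right.trans Subgroup.le_normalizer)).trans (Nz_inf_le _ _)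
      apply Subgroup.commutator_commutator_eq_bot_of_rotate
      · rw [Subgroup.commutator_comm U F, hFU, Subgroup.commutator_bot_left]
      · have h1 : ⁅F, Ru⁆ ≤ F := Subgroup.le_normalizer_iff_commutator_le_left.mp hRF
        rw [eq_bot_iff, ← hFU]
        exact Subgroup.commutator_mono h1 le_rfl
    · set W := ⁅E, U⁆ with hW
      have hWu := hc u hu hu1
      have hRW : Ru ≤ Nz W := by
        rw [hWu]
        refine le_trans (le_inf (hnE _) ?_) (Nz_commutator_le _ _)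
        refine le_trans ?_ (Cz_le_Nz _)
        rw [hzp]; exact inf_le_right
      have hUW : U ≤ Nz W := Subgroup.normalizer_commutator_ge_right _ _
      have hQW : Q ≤ triv E W := by
        rw [hQ, Subgroup.commutator_le]
        intro r hr a ha
        have ha' : a ∈ triv E W := by
          refine ⟨hUW ha, fun e he => ?_⟩
          rw [hW, Subgroup.commutator_comm]
          exact Subgroup.commutator_mem_commutator ha he
        rw [commutatorElement_def]
        exact Subgroup.mul_mem _ (conj_mem_triv ha' (hRW hr)) (Subgroup.inv_mem _ ha')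
      have hEQ : ⁅E, Q⁆ ≤ ⁅E, Subgroup.zpowers u⁆ := by
        rw [← hWu, Subgroup.commutator_comm, Subgroup.commutator_le]
        intro x hx e he
        rw [commutatorElement_def]
        exact (hQW hx).2 e he
      have h1 := comm_eq_bot_of_le E (Subgroup.zpowers u) Q hE hzP
        (by
          intro hd
          exact (Nat.Prime.coprime_iff_not_dvd Fact.out).mp hQcop.symm hd) (hnE _) (hnE _)
        (by rw [Subgroup.commutator_eq_bot_iff_le_centralizer]; exact huz) hEQ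
      rw [Subgroup.commutator_comm, Subgroup.commutator_eq_bot_iff_le_centralizer] at h1
      exact h1
  have := hU.1
  have hgen := Cfsg.Agent.H1.Partition.generation U R hnc hRU hcop
  rw [← hgen, comm_le_iff_map]
  apply iSup_le
  intro u
  apply iSup_le
  rintro ⟨hu, hu1⟩
  rw [← comm_le_iff_map]
  exact key u hu hu1

end Cfsg.Agent.H17.Cop
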