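import Cfsg.Agent.S3947

/-!
# Iterated commutators with an automorphism
-/

set_option autoImplicit false
set_option linter.all false

namespace Cfsg.Agent.H17.EC

open Subgroup

universe u

def ph {G : Type u} [Group G] (α : MulAut G) (c : G) : G := c * (α c)⁻¹

variable {G : Type u} [Group G]

/-- invariance under powers -/
theorem inv_pow [Finite G] (α : MulAut G) (L : Subgroup G) (hL : ∀ l ∈ L, α l ∈ L) :
    ∀ t ∈ zpowers α, ∀ l ∈ L, t l ∈ L := by
  intro t ht
  have hf : IsOfFinOrder α := isOfFinOrder_of_finite α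
  obtain ⟨n, hn⟩ := (hf.mem_powers_iff_mem_zpowers).mpr ht
  have hn' : α ^ n = t := hn
  rw [← hn']
  clear hn hn' ht
  induction n with
  | zero => intro l hl; exact hl
  | succ n ih =>
    intro l hl
    rw [pow_succ', MulAut.mul_apply]
    exact hL _ (ih l hl)

theorem ph_pow [Finite G] (α : MulAut G) (L H₀ : Subgroup G) (hH : ∀ l ∈ H₀, α l ∈ H₀) (hLH : ∀ h ∈ H₀, ph α h ∈ L) :
    ∀ t ∈ zpowers α, ∀ g ∈ H₀, g * (t g)⁻¹ ∈ L := by
  intro t ht g hg
  have hf : IsOfFinOrder α := isOfFinOrder_of_finite α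
  obtain ⟨n, hn⟩ := (hf.mem_powers_iff_mem_zpowers).mpr ht
  have hn' : α ^ n = t := hn
  rw [← hn']
  clear hn hn' ht
  induction n with
  | zero =>
    show g * g⁻¹ ∈ L
    rw [mul_inv_cancel]; exact L.one_mem
  | succ n ih =>
    have h1 : (α ^ n) g ∈ H₀ := inv_pow α H₀ hH _ (pow_mem (mem_zpowers α) n) g hg
    have h2 : g * ((α ^ (n + 1)) g)⁻¹ = (g * ((α ^ n) g)⁻¹) * ph α ((α ^ n) g) := by
      rw [ph, pow_succ', MulAut.mul_apply]; group
    rw [h2]
    exact L.mul_mem ih (hLH _ h1)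

abbrev Gam (α : MulAut G) : Type u := G ⋊[(zpowers α).subtype] (zpowers α)

instance [Finite G] (α : MulAut G) : Finite (Gam α) :=
  Finite.of_equiv _ (SemidirectProduct.equivProd (φ := (zpowers α).subtype)).symm

/-- the subgroup `L·⟨α⟩` -/
def ext (α : MulAut G) (L : Subgroup G) (hL : ∀ t ∈ zpowers α, ∀ l ∈ L, t l ∈ L) : Subgroup (Gam α) where
  carrier := {γ | γ.left ∈ L}
  one_mem' := L.one_mem
  mul_mem' := by
    intro a b ha hb
    show (a * b).left ∈ L
    rw [SemidirectProduct.mul_left]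
    exact L.mul_mem ha (hL _ a.right.2 _ hb)
  inv_mem' := by
    intro a ha
    show (a⁻¹).left ∈ L
    rw [SemidirectProduct.inv_left]
    exact hL _ (a.right⁻¹).2 _ (L.inv_mem ha)

theorem mem_ext {α : MulAut G} {L : Subgroup G} {hL : ∀ t ∈ zpowers α, ∀ l ∈ L, t l ∈ L} {γ : Gam α} :
    γ ∈ ext α L hL ↔ γ.left ∈ L := Iff.rfl

theorem iter_comm (α : MulAut G) (k : ℕ) (g : G) : (ph α)^[k] (α g) = α ((ph α)^[k] g) := by
  induction k generalizing g with
  | zero => rfl
  | succ k ih =>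
    rw [Function.iterate_succ_apply, Function.iterate_succ_apply, ← ih]
    congr 1
    rw [ph, ph, map_mul, map_inv]

end Cfsg.Agent.H17.EC
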