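import Cfsg.Agent.H17_EC1

/-!
# Iterated commutators with an automorphism: main theorem
-/

set_option autoImplicit false
set_option linter.all false

namespace Cfsg.Agent.H17.EC

open Subgroup

universe u

theorem main : ∀ (n : ℕ) (G : Type u) [Group G] [Finite G], Nat.card G = n → ∀ (α : MulAut G),
    closure (Set.range (ph α)) = ⊤ → ∀ k, closure (Set.range ((ph α)^[k])) = ⊤ := by
  intro n
  induction n using Nat.strong_induction_on with
  | _ n ih =>
  intro G _ _ hn α hG k
  classical
  by_contra hE
  set E := closure (Set.range ((ph α)^[k])) with hEdef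
  have hEα : ∀ l ∈ E, α l ∈ E := by
    have h1 : E ≤ E.comap (α : G →* G) := by
      rw [hEdef, closure_le]
      rintro _ ⟨g, rfl⟩
      exact Subgroup.subset_closure ⟨α g, iter_comm α k g⟩
    exact fun l hl => h1 hl
  have hEt := inv_pow α E hEα
  let a : Gam α := SemidirectProduct.inr ⟨α, mem_zpowers α⟩
  let A : Subgroup (Gam α) := (SemidirectProduct.inr : zpowers α →* Gam α).range
  have haA : a ∈ A := ⟨_, rfl⟩
  have hdec : ∀ γ : Gam α, γ = SemidirectProduct.inl γ.left * SemidirectProduct.inr γ.right :=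
    fun γ => (SemidirectProduct.inl_left_mul_inr_right γ).symm
  have hAext : ∀ (L : Subgroup G) (hL : ∀ t ∈ zpowers α, ∀ l ∈ L, t l ∈ L), A ≤ ext α L hL := by
    rintro L hL _ ⟨t, rfl⟩
    rw [mem_ext, SemidirectProduct.left_inr]; exact L.one_mem
  have hinlα : ∀ c : G, (SemidirectProduct.inl (α c) : Gam α) = a * SemidirectProduct.inl c * a⁻¹ := by
    intro c
    have h1 := SemidirectProduct.inl_aut (φ := (zpowers α).subtype) (⟨α, mem_zpowers α⟩ : zpowers α) c
    rw [map_inv] at h1
    exact h1
  have hinlph : ∀ c : G, (SemidirectProduct.inl (ph α c) : Gam α) =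
      SemidirectProduct.inl c * a * (SemidirectProduct.inl c)⁻¹ * a⁻¹ := by
    intro c
    rw [ph, map_mul, map_inv, hinlα]; group
  have hexttop : ext α E hEt ≠ ⊤ := by
    intro h
    apply hE
    rw [eq_top_iff]
    intro g _
    have h1 : (SemidirectProduct.inl g : Gam α) ∈ ext α E hEt := by rw [h]; exact mem_top _
    rw [mem_ext, SemidirectProduct.left_inl] at h1
    exact h1
  have hAne : A ≠ ⊤ := by
    intro h
    apply hexttop
    rw [eq_top_iff, ← h]
    exact hAext E hEt
  have hAnc : normalClosure (A : Set (Gam α)) = ⊤ := by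
    rw [eq_top_iff]
    intro γ _
    rw [hdec γ]
    have hsub : (A : Set (Gam α)) ⊆ normalClosure (A : Set (Gam α)) := subset_normalClosure
    refine mul_mem ?_ (hsub ⟨_, rfl⟩)
    have h1 : closure (Set.range (ph α)) ≤ (normalClosure (A : Set (Gam α))).comap (SemidirectProduct.inl : G →* Gam α) := by
      rw [closure_le]
      rintro _ ⟨c, rfl⟩
      show (SemidirectProduct.inl (ph α c) : Gam α) ∈ normalClosure (A : Set (Gam α))
      rw [hinlph]
      exact mul_mem (normalClosure_normal.conj_mem _ (hsub haA) _) (inv_mem (hsub haA))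
    rw [hG] at h1
    exact h1 (mem_top γ.left)
  rcases Cfsg.Agent.S3947.result A hAnc hAne with hY | ⟨M, ⟨hM, hAM⟩, huniq⟩
  · -- Y = ⊤
    apply hexttop
    rw [eq_top_iff, ← hY]
    apply sSup_le
    rintro H ⟨hAH, hHne, hHnc⟩
    let H₀ : Subgroup G := H.comap (SemidirectProduct.inl : G →* Gam α)
    have haH : a ∈ H := hAH haA
    have hleft : ∀ γ ∈ H, γ.left ∈ H₀ := by
      intro γ hγ
      show (SemidirectProduct.inl γ.left : Gam α) ∈ H
      have h1 : (SemidirectProduct.inl γ.left : Gam α) = γ * (SemidirectProduct.inr γ.right)⁻¹ :=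
        eq_mul_inv_of_mul_eq (hdec γ).symm
      rw [h1]
      exact H.mul_mem hγ (H.inv_mem (hAH ⟨_, rfl⟩))
    have hH₀α : ∀ l ∈ H₀, α l ∈ H₀ := by
      intro l hl
      show (SemidirectProduct.inl (α l) : Gam α) ∈ H
      rw [hinlα]
      exact H.mul_mem (H.mul_mem haH hl) (H.inv_mem haH)
    have hH₀ne : H₀ ≠ ⊤ := by
      intro h
      apply hHne
      rw [eq_top_iff]
      intro γ _
      rw [hdec γ]
      have h1 : γ.left ∈ H₀ := by rw [h]; exact mem_top _
      exact H.mul_mem h1 (hAH ⟨_, rfl⟩)
    let f : H₀ →* H₀ := ((α : G →* G).comp H₀.subtype).codRestrict H₀ (fun x => hH₀α x x.2)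
    have hf : ∀ x : H₀, (f x : G) = α x := fun x => rfl
    have hfinj : Function.Injective f := by
      intro x y hxy
      have h1 : α (x : G) = α y := congrArg Subtype.val hxy
      exact Subtype.ext (α.injective h1)
    let β : MulAut H₀ := MulEquiv.ofBijective f (Finite.injective_iff_bijective.mp hfinj)
    have hβ : ∀ x : H₀, (β x : G) = α x := fun x => rfl
    have hphβ : ∀ x : H₀, ((ph β x : H₀) : G) = ph α x := fun x => rfl
    set L : Subgroup H₀ := closure (Set.range (ph β)) with hL
    have hLβ : ∀ l ∈ L, β l ∈ L := by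
      have h1 : L ≤ L.comap (β : H₀ →* H₀) := by
        rw [hL, closure_le]
        rintro _ ⟨c, rfl⟩
        have h2 : β (ph β c) = ph β (β c) := by rw [ph, ph, map_mul, map_inv]
        show β (ph β c) ∈ closure (Set.range (ph β))
        rw [h2]
        exact Subgroup.subset_closure ⟨_, rfl⟩
      exact fun l hl => h1 hl
    have hLn : ∀ g : H₀, ∀ l ∈ L, g * l * g⁻¹ ∈ L := by
      intro g
      have h1 : L ≤ L.comap (MulAut.conj g).toMonoidHom := by
        rw [hL, closure_le]
        rintro _ ⟨c, rfl⟩
        show MulAut.conj g (ph β c) ∈ closure (Set.range (ph β))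
        have h2 : MulAut.conj g (ph β c) = ph β (g * c) * (ph β g)⁻¹ := by
          rw [MulAut.conj_apply, ph, ph, ph, map_mul]; group
        rw [h2]
        exact mul_mem (Subgroup.subset_closure ⟨_, rfl⟩) (inv_mem (Subgroup.subset_closure ⟨_, rfl⟩))
      intro l hl
      have h3 := h1 hl
      have h4 : MulAut.conj g l ∈ L := h3
      rwa [MulAut.conj_apply] at h4
    let L' : Subgroup G := L.map H₀.subtype
    have hL'α : ∀ l ∈ L', α l ∈ L' := by
      rintro _ ⟨l, hl, rfl⟩
      exact ⟨β l, hLβ l hl, rfl⟩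
    have hL't := inv_pow α L' hL'α
    have hL'H : L' ≤ H₀ := map_subtype_le L
    have hL'n : ∀ g ∈ H₀, ∀ l ∈ L', g * l * g⁻¹ ∈ L' := by
      rintro g hg _ ⟨l, hl, rfl⟩
      exact ⟨⟨g, hg⟩ * l * ⟨g, hg⟩⁻¹, hLn ⟨g, hg⟩ l hl, rfl⟩
    have hphL' : ∀ h ∈ H₀, ph α h ∈ L' := by
      intro h hh
      exact ⟨ph β ⟨h, hh⟩, Subgroup.subset_closure ⟨_, rfl⟩, rfl⟩
    have hpp := ph_pow α L' H₀ hH₀α hphL'
    have hHL' : H ≤ ext α L' hL't := by
      haveI hnorm : ((ext α L' hL't).subgroupOf H).Normal := by
        constructor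
        intro x hx η
        rw [mem_subgroupOf, mem_ext] at hx ⊢
        have hg : (η : Gam α).left ∈ H₀ := hleft _ η.2
        set t := (η : Gam α).right with ht
        set s := (x : Gam α).right with hs
        set g := (η : Gam α).left with hgdef
        have h1 : ((η * x * η⁻¹ : H) : Gam α).left =
            (g * ((t : MulAut G) (x : Gam α).left) * g⁻¹) * (g * (((t * s * t⁻¹ : zpowers α) : MulAut G) g)⁻¹) := by
          rw [Subgroup.coe_mul, Subgroup.coe_mul, Subgroup.coe_inv, SemidirectProduct.mul_left, SemidirectProduct.mul_left,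
            SemidirectProduct.mul_right, SemidirectProduct.inv_left]
          show g * (t : MulAut G) (x : Gam α).left * ((t * s : zpowers α) : MulAut G) (((t⁻¹ : zpowers α) : MulAut G) g⁻¹) = _
          rw [← MulAut.mul_apply, ← Subgroup.coe_mul, map_inv]
          group
        rw [h1]
        exact L'.mul_mem (hL'n g hg _ (hL't _ t.2 _ hx)) (hpp _ (t * s * t⁻¹ : zpowers α).2 g hg)
      have h2 : normalClosure ((A.subgroupOf H : Subgroup H) : Set H) ≤ (ext α L' hL't).subgroupOf H := by
        apply normalClosure_le_normal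
        intro x hx
        exact hAext L' hL't hx
      rw [hHnc] at h2
      intro γ hγ
      exact h2 (mem_top (⟨γ, hγ⟩ : H))
    have hLtop : L = ⊤ := by
      rw [eq_top_iff]
      intro h _
      have h1 : (SemidirectProduct.inl (h : G) : Gam α) ∈ ext α L' hL't := hHL' h.2
      rw [mem_ext, SemidirectProduct.left_inl] at h1
      obtain ⟨l, hl, hlh⟩ := h1
      have : l = h := Subtype.ext hlh
      rw [← this]; exact hl
    have hlt : Nat.card H₀ < n := by
      rw [← hn]
      exact lt_of_le_of_ne (Nat.le_of_dvd Nat.card_pos (card_subgroup_dvd_card H₀))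
        (fun h => hH₀ne (Subgroup.eq_top_of_card_eq _ h))
    have hih := ih _ hlt H₀ rfl β hLtop k
    have hiter : ∀ (j : ℕ) (x : H₀), (((ph β)^[j] x : H₀) : G) = (ph α)^[j] x := by
      intro j
      induction j with
      | zero => intro x; rfl
      | succ j ihj =>
        intro x
        rw [Function.iterate_succ_apply, Function.iterate_succ_apply, ihj]; rfl
    have hH₀E : H₀ ≤ E := by
      have h1 : closure (Set.range ((ph β)^[k])) ≤ E.comap H₀.subtype := by
        rw [closure_le]
        rintro _ ⟨x, rfl⟩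
        show (((ph β)^[k] x : H₀) : G) ∈ E
        rw [hiter]
        exact Subgroup.subset_closure ⟨_, rfl⟩
      rw [hih] at h1
      intro h hh
      exact h1 (mem_top (⟨h, hh⟩ : H₀))
    intro γ hγ
    rw [mem_ext]
    exact hH₀E (hleft γ hγ)
  · -- unique maximal
    have hEM : ext α E hEt ≤ M := by
      obtain ⟨M', hM', hle⟩ := (eq_top_or_exists_le_coatom (ext α E hEt)).resolve_left hexttop
      have := huniq M' ⟨hM', (hAext E hEt).trans hle⟩
      rw [← this]; exact hle
    have hMn : normalizer (M : Set (Gam α)) = M := by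
      rcases hM.le_iff.mp (le_normalizer (H := M)) with h | h
      · exfalso
        haveI : M.Normal := normalizer_eq_top_iff.mp h
        have h1 : normalClosure (A : Set (Gam α)) ≤ M := normalClosure_le_normal hAM
        rw [hAnc] at h1
        exact hM.1 (top_le_iff.mp h1)
      · exact h
    have hstep : ∀ x : G, (SemidirectProduct.inl (ph α x) : Gam α) ∈ M → (SemidirectProduct.inl x : Gam α) ∈ M := by
      intro x hx
      rw [hinlph] at hx
      have haM : a ∈ M := hAM haA
      have h1 : (SemidirectProduct.inl x : Gam α) * a * (SemidirectProduct.inl x)⁻¹ ∈ M := by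
        have := M.mul_mem hx haM
        simpa using this
      set y : Gam α := SemidirectProduct.inl x with hy
      -- A ≤ y⁻¹ M y
      let M' : Subgroup (Gam α) := M.map (MulAut.conj y⁻¹).toMonoidHom
      have hM' : IsCoatom M' := by
        have : M' = (MulAut.conj y⁻¹ : MulAut (Gam α)).mapSubgroup M := rfl
        rw [this]
        exact ((MulAut.conj y⁻¹ : MulAut (Gam α)).mapSubgroup.isCoatom_iff M).mpr hM
      have hAM' : A ≤ M' := by
        have h2 : a ∈ M' := by
          refine ⟨y * a * y⁻¹, h1, ?_⟩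
          show MulAut.conj y⁻¹ (y * a * y⁻¹) = a
          rw [MulAut.conj_apply]; group
        rintro _ ⟨t, rfl⟩
        obtain ⟨m, hm⟩ := mem_zpowers_iff.mp t.2
        have h3 : (SemidirectProduct.inr t : Gam α) = a ^ m := by
          have h4 : t = (⟨α, mem_zpowers α⟩ : zpowers α) ^ m := Subtype.ext (by simpa using hm.symm)
          rw [h4, map_zpow]
        rw [h3]
        exact M'.zpow_mem h2 m
      have h5 : M' = M := huniq M' ⟨hM', hAM'⟩
      have h6 : y⁻¹ ∈ normalizer (M : Set (Gam α)) := by
        apply mem_normalizer_fintype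
        intro m hm
        have h7 : MulAut.conj y⁻¹ m ∈ M' := ⟨m, hm, rfl⟩
        rw [h5, MulAut.conj_apply] at h7
        exact h7
      rw [hMn] at h6
      have := M.inv_mem h6
      rwa [inv_inv] at this
    have hdesc : ∀ (j : ℕ) (x : G), (SemidirectProduct.inl ((ph α)^[j] x) : Gam α) ∈ M → (SemidirectProduct.inl x : Gam α) ∈ M := by
      intro j
      induction j with
      | zero => intro x hx; exact hx
      | succ j ihj =>
        intro x hx
        rw [Function.iterate_succ_apply] at hx
        exact hstep x (ihj _ hx)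
    apply hM.1
    rw [eq_top_iff]
    intro γ _
    rw [hdec γ]
    refine M.mul_mem (hdesc k γ.left (hEM ?_)) (hAM ⟨_, rfl⟩)
    rw [mem_ext, SemidirectProduct.left_inl]
    exact Subgroup.subset_closure ⟨_, rfl⟩

end Cfsg.Agent.H17.EC
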