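import Mathlib
import Cfsg.Agent.H17_TW5

/-!
# Frobenius–Wielandt by transfer, and S3015
-/

set_option autoImplicit false
set_option linter.all false

namespace Cfsg.Agent.H17.FW

open Subgroup MulAction

variable {G : Type*} [Group G] [Finite G]

theorem transfer_eq (M : Subgroup G) {A : Type*} [CommGroup A] (ϕ : M →* A)
    (hFW : ∀ g : G, g ∉ M → ∀ y (hy : y ∈ M), g * y * g⁻¹ ∈ M → ϕ ⟨y, hy⟩ = 1) (x : G) (hx : x ∈ M) :
    MonoidHom.transfer ϕ x = ϕ ⟨x, hx⟩ := by
  classical
  haveI : Fintype (Quotient (orbitRel (zpowers x) (G ⧸ M))) := Fintype.ofFinite _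
  rw [MonoidHom.transfer_eq_prod_quotient_orbitRel_zpowers_quot]
  set q₀ : Quotient (orbitRel (zpowers x) (G ⧸ M)) := Quotient.mk'' ((1 : G) : G ⧸ M) with hq₀
  have hfix : ∀ k : ℤ, x ^ k • ((1 : G) : G ⧸ M) = ((1 : G) : G ⧸ M) := by
    intro k
    rw [MulAction.Quotient.smul_coe, smul_eq_mul, mul_one, QuotientGroup.eq]
    simpa using M.zpow_mem hx k
  have key : ∀ q : Quotient (orbitRel (zpowers x) (G ⧸ M)), q.out = ((1 : G) : G ⧸ M) → q = q₀ := by
    intro q hq
    rw [hq₀, ← hq]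
    exact (Quotient.out_eq q).symm
  have hout : q₀.out = ((1 : G) : G ⧸ M) := by
    have h1 : Quotient.mk'' q₀.out = (Quotient.mk'' ((1 : G) : G ⧸ M) : Quotient (orbitRel (zpowers x) (G ⧸ M))) :=
      Quotient.out_eq q₀
    rw [Quotient.eq''] at h1
    obtain ⟨⟨_, k, rfl⟩, hk⟩ := h1
    rw [← hk]
    exact hfix k
  rw [Finset.prod_eq_single q₀]
  · have hm : (q₀.out.out : G) ∈ M := by
      have h2 : ((q₀.out.out : G) : G ⧸ M) = ((1 : G) : G ⧸ M) := by
        rw [QuotientGroup.out_eq', hout]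
      have h3 := QuotientGroup.eq.mp h2
      rw [mul_one] at h3
      exact (inv_mem_iff).mp h3
    have hper : Function.minimalPeriod (x • ·) q₀.out = 1 := by
      rw [Function.minimalPeriod_eq_one_iff_isFixedPt, hout]
      have := hfix 1
      rw [zpow_one] at this
      exact this
    have h4 : (⟨(q₀.out.out : G)⁻¹ * x ^ Function.minimalPeriod (x • ·) q₀.out * q₀.out.out,
        QuotientGroup.out_conj_pow_minimalPeriod_mem M x q₀.out⟩ : M) =
        (⟨q₀.out.out, hm⟩ : M)⁻¹ * ⟨x, hx⟩ * ⟨q₀.out.out, hm⟩ := by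
      apply Subtype.ext
      show (q₀.out.out : G)⁻¹ * x ^ Function.minimalPeriod (x • ·) q₀.out * q₀.out.out = (q₀.out.out : G)⁻¹ * x * q₀.out.out
      rw [hper, pow_one]
    rw [h4, map_mul, map_mul, map_inv, mul_comm (ϕ ⟨q₀.out.out, hm⟩)⁻¹, mul_assoc, inv_mul_cancel, mul_one]
  · intro q _ hq
    apply hFW (q.out.out : G)
    · intro hmem
      apply hq
      apply key
      rw [← QuotientGroup.out_eq' q.out]
      rw [QuotientGroup.eq, mul_one]
      exact inv_mem hmem
    · have : (q.out.out : G) * ((q.out.out : G)⁻¹ * x ^ Function.minimalPeriod (x • ·) q.out * q.out.out) * (q.out.out : G)⁻¹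
          = x ^ Function.minimalPeriod (x • ·) q.out := by group
      rw [this]
      exact M.pow_mem hx _
  · intro h; exact absurd (Finset.mem_univ _) h

/-- Frobenius–Wielandt for prime index in a simple group -/
theorem fw_simple [IsSimpleGroup G] (hna : ¬ IsMulCommutative G) (M H : Subgroup G) (hHM : H ≤ M)
    (hHn : (H.subgroupOf M).Normal) (hidx : (H.relIndex M).Prime)
    (hFW : ∀ g : G, g ∉ M → ∀ y ∈ M, g * y * g⁻¹ ∈ M → y ∈ H) : False := by
  haveI := hHn
  haveI : Fact (H.relIndex M).Prime := ⟨hidx⟩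
  have hcard : Nat.card (M ⧸ H.subgroupOf M) = H.relIndex M := rfl
  haveI : IsCyclic (M ⧸ H.subgroupOf M) := isCyclic_of_prime_card hcard
  letI : CommGroup (M ⧸ H.subgroupOf M) := IsCyclic.commGroup
  set ϕ : M →* (M ⧸ H.subgroupOf M) := QuotientGroup.mk' _ with hϕ
  have h1 := transfer_eq M ϕ (by
    intro g hg y hy hgy
    rw [hϕ, QuotientGroup.mk'_apply, QuotientGroup.eq_one_iff, mem_subgroupOf]
    exact hFW g hg y hy hgy)
  obtain ⟨x, hxM, hxH⟩ : ∃ x ∈ M, x ∉ H := by
    by_contra hcon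
    push Not at hcon
    have : H = M := le_antisymm hHM hcon
    rw [this, Subgroup.relIndex_self] at hidx
    exact Nat.not_prime_one hidx
  have h2 : MonoidHom.transfer ϕ x ≠ 1 := by
    rw [h1 x hxM, hϕ, QuotientGroup.mk'_apply, Ne, QuotientGroup.eq_one_iff, mem_subgroupOf]
    exact hxH
  rcases (inferInstance : (MonoidHom.transfer ϕ).ker.Normal).eq_bot_or_eq_top with h3 | h3
  · apply hna
    refine ⟨⟨fun a b => ?_⟩⟩
    have hinj : Function.Injective (MonoidHom.transfer ϕ) := (MonoidHom.ker_eq_bot_iff _).mp h3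
    apply hinj
    rw [map_mul, map_mul, mul_comm]
  · apply h2
    have : x ∈ (MonoidHom.transfer ϕ).ker := by rw [h3]; trivial
    exact this

end Cfsg.Agent.H17.FW
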