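import Cfsg.Agent.H17_PMin
import Cfsg.Agent.H17_FS2
import Cfsg.Agent.H22_Coprime3

set_option autoImplicit false
open Cfsg

/-! `p`-minimal groups with components. -/

namespace Cfsg.Agent.H17.PMin

universe u

open Cfsg.Agent.H17.Base

theorem isPMinimal_of {X : Type*} [Group X] [Finite X] {p : ℕ} [Fact p.Prime] (S : Sylow p X) {M : Subgroup X}
    (hu : Uq (S : Subgroup X) M) (hn : ¬ (S : Subgroup X).Normal) : IsPMinimal p X := by
  intro T
  obtain ⟨g, hg⟩ := MulAction.exists_smul_eq X S T
  have hT : (T : Subgroup X) = cj g S := by rw [← hg]; rfl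
  have hcj : ∀ H : Subgroup X, (T : Subgroup X) ≤ H → H ≠ ⊤ → H ≤ cj g M := by
    intro H hH hH1
    have h1 : cj g⁻¹ H ≤ M := by
      apply hu.2.2
      · rw [hT] at hH
        rwa [cj_le_iff] at hH
      · intro h
        apply hH1
        have h2 : H = cj g (cj g⁻¹ H) := by rw [← cj_mul, mul_inv_cancel, cj_one]
        rw [h2, h]
        exact Subgroup.map_top_of_surjective _ (MulAut.conj g).surjective
    have h2 : H = cj g (cj g⁻¹ H) := by rw [← cj_mul, mul_inv_cancel, cj_one]
    rw [h2]
    exact Subgroup.map_mono h1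
  have hMtop : cj g M ≠ ⊤ := by
    intro h
    apply hu.2.1
    have h2 : M = cj g⁻¹ (cj g M) := by rw [← cj_mul, inv_mul_cancel, cj_one]
    rw [h2, h]
    exact Subgroup.map_top_of_surjective _ (MulAut.conj g⁻¹).surjective
  have hTM : (T : Subgroup X) ≤ cj g M := by rw [hT]; exact Subgroup.map_mono hu.1
  refine ⟨?_, cj g M, ⟨⟨hMtop, ?_⟩, hTM⟩, ?_⟩
  · intro hTn
    apply hn
    have h1 : (S : Subgroup X) = cj g⁻¹ (T : Subgroup X) := by rw [hT, ← cj_mul, inv_mul_cancel, cj_one]
    have h2 : cj g⁻¹ (T : Subgroup X) = T := by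
      rw [← mem_Nz_iff_cj]
      have : Nz (T : Subgroup X) = ⊤ := Subgroup.normalizer_eq_top_iff.mpr hTn
      rw [this]; trivial
    rw [h1, h2]; exact hTn
  · intro H hH
    by_contra hne
    exact absurd (hcj H (hTM.trans hH.le) hne) (not_le_of_gt hH)
  · rintro M' ⟨hM', hTM'⟩
    have h1 := hcj M' hTM' hM'.1
    rcases eq_or_lt_of_le h1 with h | h
    · exact h
    · exact absurd (hM'.2 _ h) hMtop

section comp

variable {P : Type u} [Group P] {p : ℕ} [Finite P] [Fact p.Prime]

/-- a normal `p'`-subgroup `F ≤ M` is nilpotent: every `S`-invariant Sylow subgroup of it is normal -/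
theorem nilpotent_of {S : Sylow p P} {M : Subgroup P} (hu : Uq (S : Subgroup P) M) {F : Subgroup P}
    (hF : F.Normal) (hFM : F ≤ M) (hFp : (Nat.card F).Coprime p) : Group.IsNilpotent F := by
  have hSF : (S : Subgroup P) ≤ Nz F := by
    have : Nz F = ⊤ := Subgroup.normalizer_eq_top_iff.mpr hF
    rw [this]; exact le_top
  have hcop : (Nat.card (S : Subgroup P)).Coprime (Nat.card F) := by
    obtain ⟨n, hn⟩ := IsPGroup.iff_card.mp S.2
    rw [hn]; exact (hFp.pow_right n).symm
  have hSsol : Group.IsSolvable (S : Subgroup P) := by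
    have := S.2.isNilpotent
    infer_instance
  have key : ∀ (r : ℕ) (_ : Fact r.Prime) (R : Sylow r F), (R : Subgroup F).Normal := by
    intro r hr R'
    obtain ⟨R, hR⟩ := Cfsg.Agent.H1.Coprime.invariant_sylow_exists (S : Subgroup P) F hSF hcop (Or.inl hSsol) r
    have hRn : (R : Subgroup F).Normal := by
      have h1 : IsSylowIn r ((R : Subgroup F).map F.subtype) F := isSylowIn_map R
      have h2 := frattini_le (H := ⊤) h1 le_top (by
        have : Nz F = ⊤ := Subgroup.normalizer_eq_top_iff.mpr hF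
        rw [this])
      have h3 : Nz ((R : Subgroup F).map F.subtype) = ⊤ := by
        by_contra hne
        have h5 := hu.2.2 _ hR hne
        apply hu.2.1
        rw [eq_top_iff, ← h2]
        exact sup_le hFM (inf_le_right.trans h5)
      have h4 : ((R : Subgroup F).map F.subtype).Normal := Subgroup.normalizer_eq_top_iff.mp h3
      constructor
      intro x hx g
      have h5 := h4.conj_mem (x : P) ⟨x, hx, rfl⟩ (g : P)
      obtain ⟨y, hy, hy2⟩ := h5
      have : y = g * x * g⁻¹ := Subtype.ext hy2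
      rwa [← this]
    obtain ⟨g, hg⟩ := MulAction.exists_smul_eq F R R'
    have h6 : (R' : Subgroup F) = R := by
      rw [← hg]
      exact (mem_Nz_iff_cj (G := F)).mp (by
        have : Nz (R : Subgroup F) = ⊤ := Subgroup.normalizer_eq_top_iff.mpr hRn
        rw [this]; trivial)
    rw [h6]; exact hRn
  exact (Group.isNilpotent_of_finite_tfae.out 0 3 rfl rfl).mpr key

theorem not_isPPrime {S : Sylow p P} {M : Subgroup P} (hu : Uq (S : Subgroup P) M) {E : Subgroup P}
    (hE : E.Normal) (hEp : (Nat.card E).Coprime p) (hES : E ⊔ (S : Subgroup P) = ⊤) : Group.IsSolvable P := by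
  obtain ⟨r, hr, R, hR, hRS, hSR⟩ := two_primes S.2 hu hE hEp hES
  have : Fact r.Prime := ⟨hr⟩
  have hRn : R.Normal := by
    rw [← Subgroup.normalizer_eq_top_iff, eq_top_iff]
    have h1 : R ⊔ (S : Subgroup P) ≤ Nz R := sup_le Subgroup.le_normalizer hSR
    rwa [hRS] at h1
  have h1 : (S : Subgroup P).map (QuotientGroup.mk' R) = ⊤ := by
    rw [map_mk_eq_top_iff, sup_comm]; exact hRS
  have h2 : IsPGroup p ((S : Subgroup P).map (QuotientGroup.mk' R)) := S.2.map _
  rw [h1] at h2
  have h3 : IsPGroup p (P ⧸ R) := h2.of_equiv Subgroup.topEquiv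
  have h4 : Group.IsSolvable (P ⧸ R) := by
    have := h3.isNilpotent
    infer_instance
  have h5 : Group.IsSolvable R := by
    have := hR.isNilpotent
    infer_instance
  exact (Group.isSolvable_iff_subgroup_quotient R).mpr ⟨h5, h4⟩

theorem quot_pgroup (S : Sylow p P) {N : Subgroup P} [N.Normal] (h : N ⊔ (S : Subgroup P) = ⊤) :
    IsPGroup p (P ⧸ N) := by
  have h1 : (S : Subgroup P).map (QuotientGroup.mk' N) = ⊤ := by
    rw [map_mk_eq_top_iff, sup_comm]; exact h
  have h2 : IsPGroup p ((S : Subgroup P).map (QuotientGroup.mk' N)) := S.2.map _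
  rw [h1] at h2
  exact h2.of_equiv Subgroup.topEquiv

theorem perf_le {N : Subgroup P} [N.Normal] (hq : IsPGroup p (P ⧸ N)) {X : Subgroup P} (hX : ⁅X, X⁆ = X) :
    X ≤ N := by
  have h1 : X.map (QuotientGroup.mk' N) = ⊥ := by
    apply Cfsg.Agent.H22.Coprime3.eq_bot_of_le_commutator_of_isPGroup (p := p)
    · exact hq.to_subgroup _
    · rw [← Subgroup.map_commutator, hX]
  rwa [Subgroup.map_eq_bot_iff, QuotientGroup.ker_mk'] at h1

theorem cop_of_le {S : Sylow p P} {M : Subgroup P} (hu : Uq (S : Subgroup P) M) (hOp : pCore p P = ⊥)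
    {N : Subgroup P} (hN : N.Normal) (hNM : N ≤ M) : (Nat.card N).Coprime p := by
  rw [Nat.coprime_comm, Nat.Prime.coprime_iff_not_dvd Fact.out]
  intro hd
  have h1 := normal_inf_le hu hN hNM
  rw [hOp, le_bot_iff] at h1
  have hT : (⊤ : Subgroup P) ≤ Nz N := by
    have : Nz N = ⊤ := Subgroup.normalizer_eq_top_iff.mpr hN
    rw [this]
  have h2 : IsSylowIn p ((S : Subgroup P) ⊓ N) N := (isSylowIn_coe S).inf_normal le_top hT
  rw [h1] at h2
  apply (h2.toSylow).ne_bot_of_dvd_card hd
  rw [eq_bot_iff]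
  intro x hx
  have h3 : (x : P) ∈ (⊥ : Subgroup P) := hx
  rw [Subgroup.mem_bot] at h3
  exact Subtype.ext h3

theorem comp_not_le {S : Sylow p P} {M : Subgroup P} (hu : Uq (S : Subgroup P) M) (hOp : pCore p P = ⊥)
    {K : Subgroup P} (hK : IsComponent K) {N : Subgroup P} (hN : N.Normal) (hKN : K ≤ N) : ¬ N ≤ M := by
  intro hNM
  have h1 := nilpotent_of hu hN hNM (cop_of_le hu hOp hN hNM)
  apply Cfsg.Agent.H11.Components.IsQuasisimple.not_isNilpotent hK.2
  have h2 : Group.IsNilpotent ↥(K.subgroupOf N) := inferInstance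
  exact Group.nilpotent_of_mulEquiv (Subgroup.subgroupOfEquivOfLe hKN)

theorem subn_comp_not_le {S : Sylow p P} {M : Subgroup P} (hu : Uq (S : Subgroup P) M) (hOp : pCore p P = ⊥)
    {K : Subgroup P} (hK : IsComponent K) {N : Subgroup P} (hN : N.IsSubnormal) (hSN : (S : Subgroup P) ≤ Nz N)
    (hKN : K ≤ N) : ¬ N ≤ M := by
  intro hNM
  obtain ⟨N', hN', h1, h2⟩ := exists_normal_ge hu _ _ rfl (sn_top_iff.mpr hN) hSN hNM
  exact comp_not_le hu hOp hK hN' (hKN.trans h1) h2

theorem res_eq_layer {S : Sylow p P} {M : Subgroup P} (hu : Uq (S : Subgroup P) M) (hOp : pCore p P = ⊥)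
    {K : Subgroup P} (hK : IsComponent K) : pResidual p P = layer P := by
  apply le_antisymm
  · exact (normal_dich hu inferInstance).resolve_right
      (comp_not_le hu hOp hK inferInstance (Cfsg.Agent.H11.Components.le_layer hK))
  · have : (pResidual p P).Normal := inferInstance
    apply perf_le (quot_pgroup S (N := pResidual p P) (by
      rw [sup_comm]; exact Cfsg.Agent.H2.Fusion2.sup_pResidual S))
    exact Cfsg.Agent.H11.Components.layer_perfect

theorem fstar_eq {S : Sylow p P} {M : Subgroup P} (hu : Uq (S : Subgroup P) M) (hOp : pCore p P = ⊥)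
    {K : Subgroup P} (hK : IsComponent K) : generalizedFittingSubgroup P = layer P := by
  have h1 : fittingSubgroup P ≤ pResidual p P := by
    intro x hx
    apply Subgroup.subset_closure
    have h2 := Cfsg.Agent.H17.FS.coprime_fitting hOp
    have h3 := orderOf_dvd_natCard (⟨x, hx⟩ : fittingSubgroup P)
    rw [Subgroup.orderOf_mk] at h3
    exact Nat.Coprime.coprime_dvd_left h3 h2
  rw [res_eq_layer hu hOp hK] at h1
  unfold generalizedFittingSubgroup
  exact sup_eq_left.mpr h1

/-- join of the `S`-conjugates -/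
def jn (S K : Subgroup P) : Subgroup P := ⨆ s : S, K.map (MulAut.conj (s : P)).toMonoidHom

omit [Finite P] [Fact p.Prime] in
theorem le_jn (S K : Subgroup P) : K ≤ jn S K := by
  refine le_trans ?_ (le_iSup _ (1 : S))
  show K ≤ cj ((1 : S) : P) K
  rw [Subgroup.coe_one, cj_one]

omit [Fact p.Prime] in
theorem le_Nz_jn (S K : Subgroup P) : S ≤ Nz (jn S K) := by
  intro s hs
  rw [mem_Nz_iff_cj]
  apply Subgroup.eq_of_le_of_card_ge
  · rw [cj_le_iff]
    apply iSup_le
    intro t
    rw [← cj_le_iff]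
    refine le_trans ?_ (le_iSup _ (⟨s * t, S.mul_mem hs t.2⟩ : S))
    show cj s (cj (t : P) K) ≤ cj (s * t) K
    rw [cj_mul]
  · rw [card_cj]

theorem jn_subnormal {S K : Subgroup P} (hK : K.IsSubnormal) : (jn S K).IsSubnormal := by
  have h0 : jn S K = sSup (Set.range fun s : S => cj (s : P) K) := rfl
  rw [h0]
  apply Cfsg.Agent.H1.Subn.sSup_subnormal
  rintro _ ⟨g, rfl⟩
  show (cj (g : P) K).IsSubnormal
  rw [← sn_top_iff]
  have := (sn_top_iff.mpr hK).conj (g : P)
  have h2 : cj (g : P) (⊤ : Subgroup P) = ⊤ := Subgroup.map_top_of_surjective _ (MulAut.conj (g : P)).surjective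
  rwa [h2] at this

theorem normal_of_sup {S D : Subgroup P} (hS : S ≤ Nz D) (h : D ⊔ S = ⊤) : D.Normal := by
  rw [← Subgroup.normalizer_eq_top_iff, eq_top_iff]
  have h1 : D ⊔ S ≤ Nz D := sup_le Subgroup.le_normalizer hS
  rwa [h] at h1

theorem layer_eq_jn {S : Sylow p P} {M : Subgroup P} (hu : Uq (S : Subgroup P) M) (hOp : pCore p P = ⊥)
    {K : Subgroup P} (hK : IsComponent K) : layer P = jn (S : Subgroup P) K := by
  apply le_antisymm
  · have h1 : jn (S : Subgroup P) K ⊔ (S : Subgroup P) = ⊤ := by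
      by_contra hne
      have h2 := hu.2.2 _ le_sup_right hne
      exact subn_comp_not_le hu hOp hK (jn_subnormal hK.1) (le_Nz_jn _ _) (le_jn _ _) (le_sup_left.trans h2)
    have h3 : (jn (S : Subgroup P) K).Normal := normal_of_sup (le_Nz_jn _ _) h1
    exact perf_le (quot_pgroup S h1) Cfsg.Agent.H11.Components.layer_perfect
  · apply iSup_le
    intro s
    apply Cfsg.Agent.H11.Components.le_layer
    rw [Cfsg.Agent.H11.Components.isComponent_map_conj]
    exact hK

theorem main {S : Sylow p P} {M : Subgroup P} (hu : Uq (S : Subgroup P) M) (hOp : pCore p P = ⊥)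
    {K : Subgroup P} (hK : IsComponent K) :
    IsPMinimal p ↥(K ⊔ ((S : Subgroup P) ⊓ Nz K)) := by
  set S₀ := (S : Subgroup P) ⊓ Nz K with hS₀
  set X := K ⊔ S₀ with hX
  have hXN : X ≤ Nz K := sup_le Subgroup.le_normalizer inf_le_right
  have hKsn : SN ⊤ K := sn_top_iff.mpr hK.1
  have hSK : IsSylowIn p ((S : Subgroup P) ⊓ K) K := hKsn.isSylowIn (isSylowIn_coe S)
  have hSKS₀ : (S : Subgroup P) ⊓ K ≤ S₀ := inf_le_inf_left _ Subgroup.le_normalizer
  -- decomposition of overgroups of `S₀`
  have hded : ∀ H : Subgroup P, S₀ ≤ H → H ≤ X → (H ⊓ K) ⊔ S₀ = H := by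
    intro H hH hHX
    have h1 := dedekind (A := S₀) (B := K) (C := H) hH inf_le_right
    rw [sup_comm S₀ K, ← hX, inf_eq_right.mpr hHX] at h1
    rw [inf_comm, sup_comm]
    exact h1.symm
  have hSX : IsSylowIn p S₀ X := by
    refine ⟨le_sup_right, S.2.to_le inf_le_left, ?_⟩
    intro Q hQX hQ hSQ
    have h1 : Q ⊓ K = (S : Subgroup P) ⊓ K := by
      apply hSK.eq_of_le inf_le_right (hQ.to_le inf_le_left)
      exact le_inf (hSKS₀.trans hSQ) inf_le_right
    rw [← hded Q hSQ hQX, h1, sup_eq_right.mpr hSKS₀]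
  have hSc : ((hSX.toSylow : Sylow p X) : Subgroup X) = S₀.subgroupOf X := rfl
  apply isPMinimal_of hSX.toSylow (M := M.subgroupOf X)
  · refine ⟨?_, ?_, ?_⟩
    · rw [hSc]
      exact Subgroup.comap_mono (inf_le_left.trans hu.1)
    · intro h
      rw [Subgroup.subgroupOf_eq_top] at h
      have hKM : K ≤ M := le_sup_left.trans h
      apply subn_comp_not_le hu hOp hK (jn_subnormal hK.1) (le_Nz_jn (S : Subgroup P) K) (le_jn _ _)
      apply iSup_le
      intro s
      have h1 : cj (s : P) K ≤ cj (s : P) M := Subgroup.map_mono hKM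
      rwa [cj_eq_of_mem (hu.1 s.2)] at h1
    · intro H hTH hH
      set H' := H.map X.subtype with hH'
      have hSH' : S₀ ≤ H' := by
        intro x hx
        exact ⟨⟨x, hSX.le hx⟩, hTH hx, rfl⟩
      have hH'X : H' ≤ X := Subgroup.map_subtype_le _
      have hH'ne : H' ≠ X := by
        intro h
        apply hH
        rw [eq_top_iff]
        intro x _
        have h1 : (x : P) ∈ H' := by rw [h]; exact x.2
        obtain ⟨y, hy, hyx⟩ := h1
        have : y = x := Subtype.ext hyx
        rwa [← this]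
      set H₁ := H' ⊓ K with hH₁
      have hH₁K : H₁ ≠ K := by
        intro h
        apply hH'ne
        apply le_antisymm hH'X
        apply sup_le _ hSH'
        rw [← h]; exact inf_le_left
      have hS₀H₁ : S₀ ≤ Nz H₁ :=
        (le_inf (hSH'.trans Subgroup.le_normalizer) inf_le_right).trans (Nz_inf_le _ _)
      have hD : jn (S : Subgroup P) H₁ ⊔ (S : Subgroup P) ≠ ⊤ := by
        intro htop
        have hDn := normal_of_sup (le_Nz_jn _ _) htop
        have hKD : K ≤ jn (S : Subgroup P) H₁ :=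
          perf_le (quot_pgroup S htop) (Cfsg.Agent.H11.Components.IsComponent.perfect hK)
        have h1 : jn (S : Subgroup P) H₁ ≤ H₁ ⊔ Cz K := by
          apply iSup_le
          intro s
          by_cases hs : (s : P) ∈ Nz K
          · have h2 : cj (s : P) H₁ = H₁ := mem_Nz_iff_cj.mp (hS₀H₁ ⟨s.2, hs⟩)
            show cj (s : P) H₁ ≤ _
            rw [h2]; exact le_sup_left
          · refine le_trans ?_ le_sup_right
            have h2 : cj (s : P) H₁ ≤ cj (s : P) K := Subgroup.map_mono inf_le_right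
            refine h2.trans ?_
            rw [← Subgroup.commutator_eq_bot_iff_le_centralizer]
            apply Cfsg.Agent.H11.Components.commutator_eq_bot_of_ne
            · exact (Cfsg.Agent.H11.Components.isComponent_map_conj K (s : P)).mpr hK
            · exact hK
            · intro h3
              exact hs (mem_Nz_iff_cj.mpr h3)
        have h2 : (H₁.subgroupOf K) = ⊤ := by
          have := hK.2.1
          apply Cfsg.Agent.H11.Components.eq_top_of_sup_center this
          rw [eq_top_iff]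
          intro x _
          have h3 := h1 (hKD x.2)
          obtain ⟨a, ha, c, hc, hac⟩ := (mem_sup_of_le_Nz (K := Cz K) ((inf_le_right.trans Subgroup.le_normalizer).trans (Nz_le_Nz_Cz K))).mp h3
          have haK : a ∈ K := ha.2
          have hcK : c ∈ K := by
            have : c = a⁻¹ * x := by rw [hac]; group
            rw [this]; exact K.mul_mem (K.inv_mem haK) x.2
          have hx : x = (⟨a, haK⟩ : K) * ⟨c, hcK⟩ := Subtype.ext hac
          rw [hx]
          apply Subgroup.mul_mem_sup
          · exact ha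
          · rw [Subgroup.mem_center_iff]
            intro y
            exact Subtype.ext (Subgroup.mem_centralizer_iff.mp hc y y.2)
        apply hH₁K
        rw [Subgroup.subgroupOf_eq_top] at h2
        exact le_antisymm inf_le_right h2
      have h1 := hu.2.2 _ le_sup_right hD
      have h2 : H' ≤ M := by
        rw [← hded H' hSH' hH'X]
        exact sup_le ((le_jn _ _).trans (le_sup_left.trans h1)) (inf_le_left.trans hu.1)
      intro x hx
      exact h2 ⟨x, hx, rfl⟩
  · intro hn
    rw [hSc] at hn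
    have h1 : X ≤ Nz S₀ := normal_subgroupOf_iff hSX.le |>.mp hn
    have h2 : K ≤ Nz ((S : Subgroup P) ⊓ K) := by
      have h3 : K ≤ Nz (S₀ ⊓ K) := (le_inf (le_sup_left.trans h1) Subgroup.le_normalizer).trans (Nz_inf_le _ _)
      have h4 : S₀ ⊓ K = (S : Subgroup P) ⊓ K := le_antisymm (inf_le_inf_right _ inf_le_left) (le_inf hSKS₀ inf_le_right)
      rwa [h4] at h3
    have h5 : (S : Subgroup P) ⊓ K = ⊥ := by
      have h6 : SN ⊤ ((S : Subgroup P) ⊓ K) := hKsn.trans (SN.of_normal inf_le_right h2)
      have h7 := h6.le_pCoreOf (p := p) (S.2.to_le inf_le_left)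
      rwa [pCoreOf_top, hOp, le_bot_iff] at h7
    have h6 : (Nat.card K).Coprime p := by
      rw [Nat.coprime_comm, Nat.Prime.coprime_iff_not_dvd Fact.out]
      intro hd
      rw [h5] at hSK
      apply (hSK.toSylow).ne_bot_of_dvd_card hd
      rw [eq_bot_iff]
      intro x hx
      have h3 : (x : P) ∈ (⊥ : Subgroup P) := hx
      rw [Subgroup.mem_bot] at h3
      exact Subtype.ext h3
    have h7 : K ≤ pPrimeCore p P := Cfsg.Agent.H11.Cores.le_pPrimeCore_of_isSubnormal p hK.1 h6
    have h8 : layer P ≤ pPrimeCore p P := by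
      rw [layer_eq_jn hu hOp hK]
      apply iSup_le
      intro s
      have h9 : cj (s : P) K ≤ cj (s : P) (pPrimeCore p P) := Subgroup.map_mono h7
      have h10 : cj (s : P) (pPrimeCore p P) = pPrimeCore p P := by
        rw [← mem_Nz_iff_cj]
        have : Nz (pPrimeCore p P) = ⊤ := Subgroup.normalizer_eq_top_iff.mpr inferInstance
        rw [this]; trivial
      rwa [h10] at h9
    have h9 : pPrimeCore p P ⊔ (S : Subgroup P) = ⊤ := by
      rw [eq_top_iff, ← Cfsg.Agent.H2.Fusion2.sup_pResidual S, res_eq_layer hu hOp hK]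
      exact sup_le le_sup_right (h8.trans le_sup_left)
    have h10 := not_isPPrime hu inferInstance (Cfsg.Agent.H11.Cores.pPrimeCore_coprime p) h9
    exact Cfsg.Agent.H11.Components.not_isSolvable_of_isComponent hK inferInstance

end comp

end Cfsg.Agent.H17.PMin
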