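import Mathlib
import Cfsg.Prelude.Def_LocalEven
import Cfsg.Agent.H17_Base
import Cfsg.Agent.H5_SL2
import Cfsg.Agent.H5_SmallIso
import Cfsg.Agent.H27_Qd

set_option autoImplicit false
open Cfsg

/-! The affine group `Qd(F)`. -/

namespace Cfsg.Agent.H17.QdF

open Subgroup Matrix H17.Base H5.SL2 H27.Qd

variable {F : Type*} [Field F]

theorem mk3_mem' (A : S F) (w : Fin 2 → F) : mk3 A w ∈ qdOver F :=
  Subgroup.subset_closure ⟨rfl, rfl, rfl⟩

theorem exists_mk3_of' (M : SpecialLinearGroup (Fin 3) F) (h0 : M.1 2 0 = 0) (h1 : M.1 2 1 = 0) (h2 : M.1 2 2 = 1) :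
    ∃ (A : S F) (w : Fin 2 → F), M = mk3 A w := by
  have hd : M.1.det = 1 := M.2
  rw [Matrix.det_fin_three, h0, h1, h2] at hd
  refine ⟨⟨!![M.1 0 0, M.1 0 1; M.1 1 0, M.1 1 1], ?_⟩, ![M.1 0 2, M.1 1 2], ?_⟩
  · rw [Matrix.det_fin_two_of]
    linear_combination hd
  · apply Subtype.ext
    ext i j
    fin_cases i <;> fin_cases j <;> simp [mk3, mk3M, h0, h1, h2]

theorem exists_mk3' {M : SpecialLinearGroup (Fin 3) F} (hM : M ∈ qdOver F) : ∃ (A : S F) (w : Fin 2 → F), M = mk3 A w := by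
  refine Subgroup.closure_induction (p := fun M _ => ∃ (A : S F) (w : Fin 2 → F), M = mk3 A w) ?_ ⟨1, 0, mk3_one.symm⟩ ?_ ?_ hM
  · rintro x ⟨h0, h1, h2⟩
    exact exists_mk3_of' x h0 h1 h2
  · rintro _ _ _ _ ⟨A, w, rfl⟩ ⟨B, u, rfl⟩
    exact ⟨_, _, mk3_mul _ _ _ _⟩
  · rintro _ _ ⟨A, w, rfl⟩
    refine ⟨A⁻¹, -((A⁻¹ : S F) : Matrix (Fin 2) (Fin 2) F) *ᵥ w, ?_⟩
    rw [inv_eq_iff_mul_eq_one, mk3_mul, mul_inv_cancel]
    rw [← mk3_one]
    congr 1
    rw [Matrix.neg_mulVec, Matrix.mulVec_neg, Matrix.mulVec_mulVec, ← Matrix.SpecialLinearGroup.coe_mul, mul_inv_cancel,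
      Matrix.SpecialLinearGroup.coe_one, Matrix.one_mulVec, neg_add_cancel]

/-- element of `Qd(F)` -/
def mk (A : S F) (w : Fin 2 → F) : ↥(qdOver F) := ⟨mk3 A w, mk3_mem' A w⟩

theorem exists_mk (M : ↥(qdOver F)) : ∃ (A : S F) (w : Fin 2 → F), M = mk A w := by
  obtain ⟨A, w, h⟩ := exists_mk3' M.2
  exact ⟨A, w, Subtype.ext h⟩

theorem mk_mul (A B : S F) (w u : Fin 2 → F) : mk A w * mk B u = mk (A * B) (A.1 *ᵥ u + w) :=
  Subtype.ext (mk3_mul A B w u)

theorem mk_inj {A B : S F} {w u : Fin 2 → F} (h : mk A w = mk B u) : A = B ∧ w = u :=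
  mk3_inj (congrArg Subtype.val h)

theorem mk_one : mk (1 : S F) 0 = 1 := Subtype.ext mk3_one

/-- `Qd(F) ≃ SL₂(F) × F²` as types. -/
noncomputable def equivProd : ↥(qdOver F) ≃ S F × (Fin 2 → F) :=
  (Equiv.ofBijective (fun x : S F × (Fin 2 → F) => mk x.1 x.2)
    ⟨fun a b h => Prod.ext (mk_inj h).1 (mk_inj h).2, fun M => by
      obtain ⟨A, w, rfl⟩ := exists_mk M
      exact ⟨(A, w), rfl⟩⟩).symm

theorem equivProd_mk (A : S F) (w : Fin 2 → F) : equivProd (mk A w) = (A, w) := by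
  unfold equivProd
  rw [Equiv.symm_apply_eq]; rfl

/-- the linear part. -/
noncomputable def lin : ↥(qdOver F) →* S F where
  toFun M := (equivProd M).1
  map_one' := by rw [← mk_one, equivProd_mk]
  map_mul' := by
    intro M N
    obtain ⟨A, w, rfl⟩ := exists_mk M
    obtain ⟨B, u, rfl⟩ := exists_mk N
    rw [mk_mul, equivProd_mk, equivProd_mk, equivProd_mk]

theorem lin_mk (A : S F) (w : Fin 2 → F) : lin (mk A w) = A := congrArg Prod.fst (equivProd_mk A w)

theorem lin_onto : Function.Surjective (lin (F := F)) := fun A => ⟨mk A 0, lin_mk A 0⟩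

theorem ker_iff {M : ↥(qdOver F)} : M ∈ (lin (F := F)).ker ↔ ∃ w, M = mk 1 w := by
  obtain ⟨A, w, rfl⟩ := exists_mk M
  rw [MonoidHom.mem_ker, lin_mk]
  constructor
  · rintro rfl; exact ⟨w, rfl⟩
  · rintro ⟨u, h⟩; exact (mk_inj h).1

theorem mk_one_mul (w u : Fin 2 → F) : mk 1 w * mk 1 u = mk (1 : S F) (w + u) := by
  rw [mk_mul, mul_one, Matrix.SpecialLinearGroup.coe_one, Matrix.one_mulVec, add_comm]

theorem mk_one_pow (w : Fin 2 → F) (n : ℕ) : mk (1 : S F) w ^ n = mk 1 (n • w) := by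
  induction n with
  | zero => rw [pow_zero, zero_smul, mk_one]
  | succ n ih => rw [pow_succ, ih, mk_one_mul, add_smul, one_smul]

theorem ker_isPGroup {p : ℕ} [CharP F p] : IsPGroup p (lin (F := F)).ker := by
  rintro ⟨M, hM⟩
  obtain ⟨w, rfl⟩ := ker_iff.1 hM
  refine ⟨1, Subtype.ext ?_⟩
  rw [Subgroup.coe_pow, pow_one, mk_one_pow]
  have : p • w = 0 := by ext i; simp
  rw [this, mk_one]; rfl

/-- `O_p(SL₂(F)) = 1` -/
theorem normal_pgroup_SL2 [Finite F] {p : ℕ} [Fact p.Prime] [CharP F p] (N : Subgroup (S F)) (hN : N.Normal) (hp : IsPGroup p N) :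
    N = ⊥ := by
  have := Fintype.ofFinite F
  have h1 : N ≤ pCore p (S F) := le_pCore hN hp
  have h2 := h1.trans (pCore_le_sylow (H5.SL2.US (F := F) p))
  rw [H5.SL2.coe_US] at h2
  rw [eq_bot_iff]
  intro x hx
  obtain ⟨a, rfl⟩ := mem_U.1 (h2 hx)
  have h3 := h2 (hN.conj_mem _ hx (w 1))
  obtain ⟨b, hb⟩ := mem_U.1 h3
  have h4 : (w 1 * u a * (w 1)⁻¹).1 1 0 = (u b : S F).1 1 0 := by rw [hb]
  have h5 : a = 0 := by
    rw [mul10, mul10, mul11, inv00, inv10] at h4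
    simp only [w_coe, u_coe, Matrix.of_apply, Matrix.cons_val', Matrix.cons_val_zero, Matrix.cons_val_one,
      Matrix.cons_val_fin_one, Matrix.empty_val'] at h4
    simpa using h4
  rw [h5, u_zero]; exact one_mem _

theorem pCore_eq [Finite F] {p : ℕ} [Fact p.Prime] [CharP F p] : pCore p ↥(qdOver F) = (lin (F := F)).ker := by
  apply le_antisymm
  · intro x hx
    have h1 : (pCore p ↥(qdOver F)).map (lin (F := F)) = ⊥ := by
      apply normal_pgroup_SL2 (p := p)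
      · exact Subgroup.Normal.map (H17.Base.pCore_normal p _) _ lin_onto
      · exact (pCore_isPGroup p _).map _
    have h2 : lin x ∈ (pCore p ↥(qdOver F)).map (lin (F := F)) := ⟨x, hx, rfl⟩
    rw [h1] at h2
    exact h2
  · exact le_pCore inferInstance ker_isPGroup

end Cfsg.Agent.H17.QdF

namespace Cfsg.Agent.H17.QdF

open Subgroup Matrix H17.Base H5.SL2 H27.Qd

variable {F : Type*} [Field F]

/-- affine action. -/
noncomputable def aff (M : ↥(qdOver F)) (v : Fin 2 → F) : Fin 2 → F :=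
  (equivProd M).1.1 *ᵥ v + (equivProd M).2

theorem aff_mk (A : S F) (w v : Fin 2 → F) : aff (mk A w) v = A.1 *ᵥ v + w := by
  unfold aff; rw [equivProd_mk]

noncomputable instance affAct : MulAction ↥(qdOver F) (Fin 2 → F) where
  smul := aff
  one_smul v := by
    show aff 1 v = v
    rw [← mk_one, aff_mk, Matrix.SpecialLinearGroup.coe_one, Matrix.one_mulVec, add_zero]
  mul_smul M N v := by
    show aff (M * N) v = aff M (aff N v)
    obtain ⟨A, w, rfl⟩ := exists_mk M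
    obtain ⟨B, u, rfl⟩ := exists_mk N
    rw [mk_mul, aff_mk, aff_mk, aff_mk, Matrix.SpecialLinearGroup.coe_mul, Matrix.mulVec_add, Matrix.mulVec_mulVec, add_assoc]

theorem aff_inj : Function.Injective (MulAction.toPermHom ↥(qdOver F) (Fin 2 → F)) := by
  rw [injective_iff_map_eq_one]
  intro M hM
  obtain ⟨A, w, rfl⟩ := exists_mk M
  have h1 : ∀ v, A.1 *ᵥ v + w = v := by
    intro v
    have := congrArg (fun f : Equiv.Perm (Fin 2 → F) => f v) hM
    rw [← aff_mk]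
    exact this
  have h2 : w = 0 := by
    have := h1 0
    simpa using this
  subst h2
  have h3 : A = 1 := by
    apply Subtype.ext
    apply Matrix.ext_of_mulVec_single
    intro i
    have := h1 (Pi.single i 1)
    rw [add_zero] at this
    rw [this, Matrix.SpecialLinearGroup.coe_one, Matrix.one_mulVec]
  rw [h3, mk_one]

theorem qd_two : Nonempty (↥(qd 2) ≃* Equiv.Perm (Fin 4)) := by
  show Nonempty (↥(qdOver (ZMod 2)) ≃* Equiv.Perm (Fin 4))
  have hc : Nat.card (S (ZMod 2)) = 6 := by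
    rw [card_SL2, ZMod.card]
  have hv : Nat.card (Fin 2 → ZMod 2) = 4 := by
    rw [Nat.card_eq_fintype_card, Fintype.card_fun, ZMod.card, Fintype.card_fin]; rfl
  have : Finite ↥(qdOver (ZMod 2)) := Finite.of_equiv _ equivProd.symm
  refine H5.SmallIso.perm_of_hom (X := Fin 2 → ZMod 2) hv _ aff_inj ?_
  rw [Nat.card_congr equivProd, Nat.card_prod, hc, hv]; rfl

end Cfsg.Agent.H17.QdF
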