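import Cfsg.Agent.H17_XRep
import Cfsg.Agent.H22_ClassTwo
import Cfsg.Agent.H1_Coprime2
import Cfsg.Agent.H1_Nilp

set_option autoImplicit false
open Cfsg

namespace Cfsg.Agent.H17.XRep

open Cfsg.Agent.H17.Base
open scoped commutatorElement

variable {G : Type*} [Group G] [Finite G] {p r : ℕ} [Fact p.Prime] {z : G}

omit [Fact p.Prime] in
/-- the centralizer of an element has index at most `p` -/
theorem card_le_mul (hzo : orderOf z = p) {H : Subgroup G} {y : G}
    (h : ∀ a ∈ H, a * y * a⁻¹ * y⁻¹ ∈ Subgroup.zpowers z) :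
    Nat.card H ≤ p * Nat.card (H ⊓ Subgroup.centralizer ({y} : Set G) : Subgroup G) := by
  set C := Subgroup.centralizer ({y} : Set G) with hC
  have h1 : Nat.card (H ⧸ C.subgroupOf H) ≤ p := by
    rw [← hzo, ← Nat.card_zpowers]
    let f : H ⧸ C.subgroupOf H → Subgroup.zpowers z := fun q => ⟨_, h q.out q.out.2⟩
    apply Nat.card_le_card_of_injective f
    intro a b hab
    have h2 : (a.out : G) * y * (a.out : G)⁻¹ * y⁻¹ = (b.out : G) * y * (b.out : G)⁻¹ * y⁻¹ :=
      congrArg Subtype.val hab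
    rw [← QuotientGroup.out_eq' a, ← QuotientGroup.out_eq' b, QuotientGroup.eq, Subgroup.mem_subgroupOf]
    apply Subgroup.mem_centralizer_singleton_iff.mpr
    have h3 : (a.out : G) * y * (a.out : G)⁻¹ = (b.out : G) * y * (b.out : G)⁻¹ := mul_right_cancel h2
    show (a.out : G)⁻¹ * (b.out : G) * y = y * ((a.out : G)⁻¹ * (b.out : G))
    calc (a.out : G)⁻¹ * (b.out : G) * y = (a.out : G)⁻¹ * ((b.out : G) * y * (b.out : G)⁻¹) * b.out := by group
      _ = (a.out : G)⁻¹ * ((a.out : G) * y * (a.out : G)⁻¹) * b.out := by rw [h3]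
      _ = _ := by group
  have h2 : Nat.card H = Nat.card (H ⧸ C.subgroupOf H) * Nat.card (C.subgroupOf H) :=
    Subgroup.card_eq_card_quotient_mul_card_subgroup _
  have h3 : Nat.card (C.subgroupOf H) = Nat.card (H ⊓ C : Subgroup G) := by
    rw [← Subgroup.inf_subgroupOf_left, Nat.card_congr (Subgroup.subgroupOfEquivOfLe (inf_le_left : H ⊓ C ≤ H)).toEquiv]
  rw [h2, h3]
  exact Nat.mul_le_mul_right _ h1

/-- standing conditions -/
structure Cnd (p : ℕ) (z : G) (E : Subgroup G) : Prop where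
  pg : IsPGroup p E
  zc : ∀ a ∈ E, a * z = z * a
  cm : ∀ a ∈ E, ∀ b ∈ E, a * b * a⁻¹ * b⁻¹ ∈ Subgroup.zpowers z
  pw : ∀ a ∈ E, a ^ p ∈ Subgroup.zpowers z

omit [Finite G] [Fact p.Prime] in
theorem Cnd.mono {E E' : Subgroup G} (h : Cnd p z E) (hle : E' ≤ E) : Cnd p z E' :=
  ⟨h.pg.to_le hle, fun a ha => h.zc a (hle ha), fun a ha b hb => h.cm a (hle ha) b (hle hb), fun a ha => h.pw a (hle ha)⟩

omit [Finite G] [Fact p.Prime] in
theorem Cnd.zcom {E : Subgroup G} (h : Cnd p z E) {a c : G} (ha : a ∈ E) (hc : c ∈ Subgroup.zpowers z) : Commute c a := by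
  obtain ⟨m, rfl⟩ := Subgroup.mem_zpowers_iff.mp hc
  exact (show Commute z a from (h.zc a ha).symm).zpow_left m

theorem mem_zp {c : G} (hc : c ∈ Subgroup.zpowers z) (hc1 : c ≠ 1) (hzo : orderOf z = p) :
    ∀ i : ℕ, ∃ j : ℕ, c ^ j = z ^ i := by
  intro i
  have hpp : p.Prime := Fact.out
  have h1 : Subgroup.zpowers c = Subgroup.zpowers z := by
    apply Subgroup.eq_of_le_of_card_ge
    · rwa [Subgroup.zpowers_le]
    · rw [Nat.card_zpowers, Nat.card_zpowers, hzo]
      have h2 : orderOf c ∣ p := by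
        rw [← hzo]
        apply orderOf_dvd_of_pow_eq_one
        obtain ⟨m, rfl⟩ := Subgroup.mem_zpowers_iff.mp hc
        rw [← zpow_natCast, ← zpow_mul, mul_comm, zpow_mul, zpow_natCast, pow_orderOf_eq_one, one_zpow]
      rcases (Nat.dvd_prime hpp).mp h2 with h3 | h3
      · exact absurd (orderOf_eq_one_iff.mp h3) hc1
      · exact h3.ge
  have h2 : z ^ i ∈ Subgroup.zpowers c := by rw [h1]; exact Subgroup.pow_mem _ (Subgroup.mem_zpowers z) i
  obtain ⟨j, hj⟩ := (Submonoid.mem_powers_iff _ _).mp ((isOfFinOrder_of_finite c).mem_powers_iff_mem_zpowers.mpr h2)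
  exact ⟨j, hj⟩

theorem exists_x (hzo : orderOf z = p) {E : Subgroup G} (h : Cnd p z E) {w : ℕ} (hw : 1 ≤ w) (hw2 : p ≠ 2 ∨ 2 ≤ w)
    (hcard : p ^ (2 * w) * Nat.card (E ⊓ Cz E : Subgroup G) ≤ Nat.card E) :
    ∃ x ∈ E, x ∉ Cz E ∧ x ^ p = 1 := by
  have hpp : p.Prime := Fact.out
  by_contra hcon
  push Not at hcon
  have hcz : ∀ x ∈ E, x ^ p = 1 → x ∈ Cz E := by
    intro x hx hxp
    by_contra hc
    exact hcon x hx hc hxp
  have hZpos : 0 < Nat.card (E ⊓ Cz E : Subgroup G) := Nat.card_pos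
  have hzp : z ^ p = 1 := by rw [← hzo]; exact pow_orderOf_eq_one z
  have hzpp : ∀ c ∈ Subgroup.zpowers z, c ^ p = 1 := by
    intro c hc
    obtain ⟨m, rfl⟩ := Subgroup.mem_zpowers_iff.mp hc
    rw [← zpow_natCast, ← zpow_mul, mul_comm, zpow_mul, zpow_natCast, hzp, one_zpow]
  by_cases hp2 : p = 2
  · subst hp2
    have hw2' : 2 ≤ w := hw2.resolve_left (fun h => h rfl)
    have hbig : 16 * Nat.card (E ⊓ Cz E : Subgroup G) ≤ Nat.card E := by
      refine le_trans (Nat.mul_le_mul_right _ ?_) hcard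
      calc 16 = 2 ^ 4 := by norm_num
        _ ≤ 2 ^ (2 * w) := Nat.pow_le_pow_right (by norm_num) (by omega)
    have hzz : z * z = 1 := by rw [← pow_two]; exact hzp
    have hz1 : z ≠ 1 := by
      intro h1; rw [h1, orderOf_one] at hzo; omega
    have hmem : ∀ c ∈ Subgroup.zpowers z, c = 1 ∨ c = z := by
      intro c hc
      obtain ⟨m, rfl⟩ := Subgroup.mem_zpowers_iff.mp hc
      rcases Int.even_or_odd' m with ⟨j, rfl | rfl⟩
      · left; rw [zpow_mul, zpow_two, hzz, one_zpow]
      · right; rw [zpow_add, zpow_mul, zpow_two, hzz, one_zpow, one_mul, zpow_one]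
    have hsq : ∀ y ∈ E, y ∉ Cz E → y * y = z := by
      intro y hy hyc
      have h1 := h.pw y hy
      rcases hmem _ h1 with h2 | h2
      · exact absurd (hcz y hy h2) hyc
      · rwa [pow_two] at h2
    have hex : ∃ y ∈ E, y ∉ Cz E := by
      by_contra hc
      push Not at hc
      have : E ⊓ Cz E = E := inf_eq_left.mpr hc
      rw [this] at hbig hZpos
      omega
    obtain ⟨y₁, hy₁, hy₁c⟩ := hex
    set E₁ := E ⊓ Subgroup.centralizer ({y₁} : Set G) with hE₁
    have h1 : Nat.card E ≤ 2 * Nat.card E₁ := card_le_mul hzo fun a ha => h.cm a ha y₁ hy₁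
    have h2 : ∃ y ∈ E₁, y ∉ Cz E ∧ y₁⁻¹ * y ∉ Cz E := by
      by_contra hc
      push Not at hc
      classical
      have h3 : Nat.card E₁ ≤ Nat.card (((E ⊓ Cz E : Subgroup G) : Type _) × Bool) := by
        let f : E₁ → ((E ⊓ Cz E : Subgroup G) : Type _) × Bool := fun y =>
          if hy : (y : G) ∈ Cz E then (⟨y, y.2.1, hy⟩, true) else
            (⟨y₁⁻¹ * y, E.mul_mem (E.inv_mem hy₁) y.2.1, hc y y.2 hy⟩, false)
        apply Nat.card_le_card_of_injective f
        intro a b hab
        by_cases ha : (a : G) ∈ Cz E <;> by_cases hb : (b : G) ∈ Cz E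
        · simp only [f, dif_pos ha, dif_pos hb, Prod.mk.injEq, and_true] at hab
          exact Subtype.ext (congrArg (fun t : (E ⊓ Cz E : Subgroup G) => (t : G)) hab)
        · simp [f, ha, hb] at hab
        · simp [f, ha, hb] at hab
        · simp only [f, dif_neg ha, dif_neg hb, Prod.mk.injEq, and_true] at hab
          exact Subtype.ext (mul_left_cancel (congrArg (fun t : (E ⊓ Cz E : Subgroup G) => (t : G)) hab))
      rw [Nat.card_prod, Nat.card_eq_fintype_card (α := Bool), Fintype.card_bool] at h3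
      omega
    obtain ⟨y₂, hy₂, hy₂c, hy₁₂⟩ := h2
    have h3 := hsq y₂ hy₂.1 hy₂c
    have h4 := hsq y₁ hy₁ hy₁c
    have h5 : y₂ * y₁ = y₁ * y₂ := Subgroup.mem_centralizer_singleton_iff.mp hy₂.2
    have h6 := hsq (y₁⁻¹ * y₂) (E.mul_mem (E.inv_mem hy₁) hy₂.1) hy₁₂
    have h7 : (y₁⁻¹ * y₂) * (y₁⁻¹ * y₂) = 1 := by
      have e1 : y₂ * y₁⁻¹ = y₁⁻¹ * y₂ := (show Commute y₂ y₁ from h5).inv_right.eq
      calc (y₁⁻¹ * y₂) * (y₁⁻¹ * y₂) = y₁⁻¹ * (y₂ * y₁⁻¹) * y₂ := by group
        _ = y₁⁻¹ * (y₁⁻¹ * y₂) * y₂ := by rw [e1]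
        _ = (y₁ * y₁)⁻¹ * (y₂ * y₂) := by group
        _ = 1 := by rw [h3, h4]; group
    rw [h7] at h6
    exact hz1 h6.symm
  · -- `p` odd
    have hinj : ∀ a ∈ E, ∀ b ∈ E, a ^ p = b ^ p → a⁻¹ * b ∈ Cz E := by
      intro a ha b hb hab
      apply hcz _ (E.mul_mem (E.inv_mem ha) hb)
      set c := b⁻¹ * a * b * a⁻¹ with hc
      have hcz' : c ∈ Subgroup.zpowers z := by
        have := h.cm b⁻¹ (E.inv_mem hb) a ha
        have e : b⁻¹ * a * b⁻¹⁻¹ * a⁻¹ = c := by rw [hc]; group
        rwa [e] at this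
      have h1 : b * a⁻¹ = a⁻¹ * b * c := by rw [hc]; group
      have h2 := Cfsg.Agent.H22.ClassTwo.mul_pow_prime hpp hp2 h1
        (h.zcom (E.inv_mem ha) hcz') (h.zcom hb hcz') (hzpp c hcz')
      rw [h2, inv_pow, hab, inv_mul_cancel]
    have h1 : Nat.card (E ⧸ (Cz E).subgroupOf E) ≤ p := by
      rw [← hzo, ← Nat.card_zpowers]
      let f : E ⧸ (Cz E).subgroupOf E → Subgroup.zpowers z := fun q => ⟨_, h.pw q.out q.out.2⟩
      apply Nat.card_le_card_of_injective f
      intro a b hab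
      have h2 : (a.out : G) ^ p = (b.out : G) ^ p := congrArg Subtype.val hab
      rw [← QuotientGroup.out_eq' a, ← QuotientGroup.out_eq' b, QuotientGroup.eq, Subgroup.mem_subgroupOf]
      exact hinj _ a.out.2 _ b.out.2 h2
    have h2 : Nat.card E = Nat.card (E ⧸ (Cz E).subgroupOf E) * Nat.card ((Cz E).subgroupOf E) :=
      Subgroup.card_eq_card_quotient_mul_card_subgroup _
    have h3 : Nat.card ((Cz E).subgroupOf E) = Nat.card (E ⊓ Cz E : Subgroup G) := by
      rw [← Subgroup.inf_subgroupOf_left, Nat.card_congr (Subgroup.subgroupOfEquivOfLe (inf_le_left : E ⊓ Cz E ≤ E)).toEquiv]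
    rw [h2, h3] at hcard
    have h4 := Nat.le_of_mul_le_mul_right hcard hZpos
    have h5 : p ^ 2 ≤ p ^ (2 * w) := Nat.pow_le_pow_right hpp.pos (by omega)
    have h6 : p < p ^ 2 := by rw [pow_two]; exact lt_mul_of_one_lt_right hpp.pos hpp.one_lt
    omega

theorem bound (hzo : orderOf z = p) {n : ℕ} [hr : Fact r.Prime] (hpr : p ≠ r) (hdiv : p ∣ r ^ n - 1) (hn : 1 ≤ n)
    (hmin : ∀ k : ℕ, 1 ≤ k → p ∣ r ^ k - 1 → n ≤ k) : ∀ (w : ℕ) (E V : Subgroup G), Cnd p z E → E ≤ Nz V →
    z ∈ Nz V → IsElementaryAbelian r V → V ≠ ⊥ → V ⊓ Subgroup.centralizer ({z} : Set G) = ⊥ →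
    p ^ (2 * w) * Nat.card (E ⊓ Cz E : Subgroup G) ≤ Nat.card E → r ^ (n * p ^ w) ≤ Nat.card V := by
  have hpp : p.Prime := Fact.out
  have hzp : z ^ p = 1 := by rw [← hzo]; exact pow_orderOf_eq_one z
  have hz1 : z ≠ 1 := by
    intro h1; rw [h1, orderOf_one] at hzo; exact hpp.one_lt.ne hzo
  have hVr : ∀ V : Subgroup G, IsElementaryAbelian r V → IsPGroup r V := by
    intro V hV v
    exact ⟨1, Subtype.ext (by rw [pow_one]; exact hV.2 v v.2)⟩
  have hcopV : ∀ V : Subgroup G, IsElementaryAbelian r V → (Nat.card V).Coprime p := by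
    intro V hV
    obtain ⟨k, hk⟩ := IsPGroup.iff_card.mp (hVr V hV)
    rw [hk]
    exact Nat.Coprime.pow_left k ((Nat.coprime_primes hr.out hpp).mpr hpr.symm)
  intro w
  induction w with
  | zero =>
    intro E V hE hEV hzV hV hV1 hfix _
    obtain ⟨k, hk⟩ := IsPGroup.iff_card.mp (hVr V hV)
    rw [pow_zero, mul_one, hk]
    apply Nat.pow_le_pow_right hr.out.pos
    have hk1 : 1 ≤ k := by
      by_contra h0
      have : k = 0 := by omega
      rw [this, pow_zero] at hk
      exact hV1 (Subgroup.card_eq_one.mp hk)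
    apply hmin k hk1
    classical
    have := Fintype.ofFinite V
    let f : Function.End V := fun v => V.normalizerMonoidHom ⟨z, hzV⟩ v
    have hfk : ∀ (m : ℕ) (v : V), (f ^ m) v = (V.normalizerMonoidHom ⟨z, hzV⟩ ^ m) v := by
      intro m
      induction m with
      | zero => intro v; rfl
      | succ m ih =>
        intro v
        rw [pow_succ, pow_succ]
        exact ih (f v)
    have hf : f ^ p ^ 1 = 1 := by
      funext v
      rw [hfk, pow_one, ← map_pow]
      have : (⟨z, hzV⟩ : Nz V) ^ p = 1 := Subtype.ext hzp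
      rw [this, map_one]
      rfl
    have h1 := Equiv.Perm.card_fixedPoints_modEq (f := f) (p := p) (n := 1) hf
    have h2 : Fintype.card (Function.fixedPoints f) = 1 := by
      rw [Fintype.card_eq_one_iff]
      refine ⟨⟨1, map_one _⟩, ?_⟩
      rintro ⟨v, hv⟩
      have h2 : (v : G) ∈ V ⊓ Subgroup.centralizer ({z} : Set G) := ⟨v.2, (cent_iff hzV v).mp hv⟩
      rw [hfix, Subgroup.mem_bot] at h2
      exact Subtype.ext (Subtype.ext h2)
    rw [h2, ← Nat.card_eq_fintype_card, hk] at h1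
    exact (Nat.modEq_iff_dvd' (Nat.one_le_pow _ _ hr.out.pos)).mp h1.symm
  | succ w ih =>
    intro E V hE hEV hzV hV hV1 hfix hcard
    have hVc := hV.1
    by_cases hcase : p = 2 ∧ w = 0
    · obtain ⟨hp2, rfl⟩ := hcase
      subst hp2
      obtain ⟨k, hk⟩ := IsPGroup.iff_card.mp (hVr V hV)
      have hn1 : n = 1 := by
        apply le_antisymm _ hn
        apply hmin 1 le_rfl
        rw [pow_one]
        have : r ≠ 2 := hpr.symm
        have h1 := hr.out.odd_of_ne_two this
        obtain ⟨j, hj⟩ := h1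
        exact ⟨j, by omega⟩
      rw [hn1, hk]
      apply Nat.pow_le_pow_right hr.out.pos
      rw [zero_add, pow_one, one_mul]
      by_contra hlt
      have hk1 : k ≤ 1 := by omega
      have hVcyc : IsCyclic V := by
        rcases Nat.le_one_iff_eq_zero_or_eq_one.mp hk1 with h0 | h0
        · rw [h0, pow_zero] at hk
          exact absurd (Subgroup.card_eq_one.mp hk) hV1
        · rw [h0, pow_one] at hk
          exact isCyclic_of_prime_card hk
      -- `E` is not abelian
      have hex : ∃ y ∈ E, y ∉ Cz E := by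
        by_contra hc
        push Not at hc
        have : E ⊓ Cz E = E := inf_eq_left.mpr hc
        rw [this] at hcard
        have h0 : 0 < Nat.card E := Nat.card_pos
        norm_num at hcard
      obtain ⟨y, hy, hyc⟩ := hex
      have hex2 : ∃ a ∈ E, a * y ≠ y * a := by
        by_contra hc
        push Not at hc
        exact hyc (Subgroup.mem_centralizer_iff.mpr hc)
      obtain ⟨a, ha, hay⟩ := hex2
      have hc := hE.cm a ha y hy
      have hc1 : a * y * a⁻¹ * y⁻¹ ≠ 1 := by
        intro h1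
        apply hay
        calc a * y = (a * y * a⁻¹ * y⁻¹) * (y * a) := by group
          _ = y * a := by rw [h1, one_mul]
      obtain ⟨j, hj⟩ := mem_zp hc hc1 hzo 1
      have hcomm : V.normalizerMonoidHom (⟨a, hEV ha⟩ * ⟨y, hEV hy⟩ * ⟨a, hEV ha⟩⁻¹ * ⟨y, hEV hy⟩⁻¹) = 1 := by
        rw [map_mul, map_mul, map_mul, map_inv, map_inv]
        have hab : ∀ s t : MulAut V, s * t = t * s := by
          intro s t
          obtain ⟨m, hm⟩ := MonoidHom.map_cyclic s.toMonoidHom
          obtain ⟨l, hl⟩ := MonoidHom.map_cyclic t.toMonoidHom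
          ext v
          have h1 : s (t v) = t (s v) := by
            have e1 : ∀ u : V, s u = u ^ m := hm
            have e2 : ∀ u : V, t u = u ^ l := hl
            rw [e2 v, e1 v, e1, e2, ← zpow_mul, ← zpow_mul, mul_comm]
          exact congrArg Subtype.val h1
        rw [hab (V.normalizerMonoidHom ⟨a, hEV ha⟩)]
        group
      have h3 : V ≤ Subgroup.centralizer ({z} : Set G) := by
        intro v hv
        have h4 : V.normalizerMonoidHom ⟨z, hzV⟩ = 1 := by
          have h5 : (⟨z, hzV⟩ : Nz V) = (⟨a, hEV ha⟩ * ⟨y, hEV hy⟩ * ⟨a, hEV ha⟩⁻¹ * ⟨y, hEV hy⟩⁻¹) ^ j := by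
            apply Subtype.ext
            rw [pow_one] at hj
            exact hj.symm
          rw [h5, map_pow, hcomm, one_pow]
        have h5 : V.normalizerMonoidHom ⟨z, hzV⟩ ⟨v, hv⟩ = ⟨v, hv⟩ := by rw [h4]; rfl
        exact (cent_iff hzV ⟨v, hv⟩).mp h5
      apply hV1
      rw [← hfix]
      exact (inf_eq_left.mpr h3).symm
    · obtain ⟨x, hxE, hxc, hxp⟩ := exists_x hzo hE (w := w + 1) (by omega) (by omega) hcard
      have hxz := hE.zc x hxE
      have hex2 : ∃ a ∈ E, a * x ≠ x * a := by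
        by_contra hc
        push Not at hc
        exact hxc (Subgroup.mem_centralizer_iff.mpr hc)
      obtain ⟨y, hyE, hyx⟩ := hex2
      set c := y * x * y⁻¹ * x⁻¹ with hc
      have hcz : c ∈ Subgroup.zpowers z := hE.cm y hyE x hxE
      have hc1 : c ≠ 1 := by
        intro h1
        apply hyx
        calc y * x = (y * x * y⁻¹ * x⁻¹) * (x * y) := by group
          _ = x * y := by rw [← hc, h1, one_mul]
      have hcx := hE.zcom hxE hcz
      have hcy := hE.zcom hyE hcz
      have hconj : ∀ j : ℕ, y ^ j * x * (y ^ j)⁻¹ = x * c ^ j := by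
        intro j
        induction j with
        | zero => simp
        | succ j ihj =>
          have e1 : y ^ (j + 1) * x * (y ^ (j + 1))⁻¹ = y * (y ^ j * x * (y ^ j)⁻¹) * y⁻¹ := by
            rw [pow_succ']; group
          rw [e1, ihj]
          have e2 : y * x * y⁻¹ = x * c := by
            rw [← hcx.eq, hc]; group
          calc y * (x * c ^ j) * y⁻¹ = (y * x * y⁻¹) * (y * c ^ j * y⁻¹) := by group
            _ = x * c * c ^ j := by
                rw [e2, ← (hcy.pow_left j).eq]; group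
            _ = x * c ^ (j + 1) := by rw [pow_succ']; group
      set V₁ := V ⊓ Subgroup.centralizer ({x} : Set G) with hV₁
      have hcj : ∀ i : ℕ, ∃ g : G, cj g V₁ = V ⊓ Subgroup.centralizer ({x * z ^ i} : Set G) := by
        intro i
        obtain ⟨j, hj⟩ := mem_zp hcz hc1 hzo i
        refine ⟨y ^ j, ?_⟩
        have h1 : cj (y ^ j) V = V := mem_Nz_iff_cj.mp (hEV (Subgroup.pow_mem _ hyE j))
        have h2 : cj (y ^ j) (Subgroup.centralizer ({x} : Set G)) = Subgroup.centralizer ({x * z ^ i} : Set G) := by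
          rw [← hj, ← hconj j]
          ext t
          rw [mem_cj, Subgroup.mem_centralizer_singleton_iff, Subgroup.mem_centralizer_singleton_iff]
          constructor
          · intro h
            calc t * (y ^ j * x * (y ^ j)⁻¹) = y ^ j * ((y ^ j)⁻¹ * t * y ^ j * x) * (y ^ j)⁻¹ := by group
              _ = y ^ j * (x * ((y ^ j)⁻¹ * t * y ^ j)) * (y ^ j)⁻¹ := by rw [h]
              _ = _ := by group
          · intro h
            calc (y ^ j)⁻¹ * t * y ^ j * x = (y ^ j)⁻¹ * (t * (y ^ j * x * (y ^ j)⁻¹)) * y ^ j := by group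
              _ = (y ^ j)⁻¹ * ((y ^ j * x * (y ^ j)⁻¹) * t) * y ^ j := by rw [h]
              _ = _ := by group
        show (V ⊓ Subgroup.centralizer ({x} : Set G)).map _ = _
        rw [Subgroup.map_inf _ _ _ (MulAut.conj (y ^ j)).injective]
        exact congrArg₂ (· ⊓ ·) h1 h2
      have hxV : x ∈ Nz V := hEV hxE
      have hcop := hcopV V hV
      have hprod := amb_prod hpp hVc hcop hxV hzV hxp hzp hxz hfix
      have h1 : ∀ i : ℕ, Nat.card (V ⊓ Subgroup.centralizer ({x * z ^ i} : Set G) : Subgroup G) = Nat.card V₁ := by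
        intro i
        obtain ⟨g, hg⟩ := hcj i
        rw [← hg, card_cj]
      simp only [h1] at hprod
      rw [Finset.prod_const, Finset.card_univ, Fintype.card_fin] at hprod
      have hV₁1 : V₁ ≠ ⊥ := by
        intro h0
        apply hV1
        apply amb_exists hpp hVc hcop hxV hzV hxp hzp hxz hfix
        intro i
        obtain ⟨g, hg⟩ := hcj i
        rw [← hg, h0]
        exact Subgroup.map_bot _
      set E₁ := E ⊓ Subgroup.centralizer ({x} : Set G) with hE₁
      have hC1 : Nat.card E ≤ p * Nat.card E₁ := card_le_mul hzo fun a ha => hE.cm a ha x hxE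
      have hE₁E : E₁ ≤ E := inf_le_left
      have hyE₁ : y ∉ E₁ := fun h => hyx (Subgroup.mem_centralizer_singleton_iff.mp h.2)
      have hC2 : Nat.card (E₁ ⊓ Cz E₁ : Subgroup G) ≤ p * Nat.card (E ⊓ Cz E : Subgroup G) := by
        have h2 := card_le_mul hzo (H := E₁ ⊓ Cz E₁) (y := y) fun a ha => hE.cm a (hE₁E ha.1) y hyE
        refine h2.trans (Nat.mul_le_mul_left _ (Subgroup.card_le_of_le ?_))
        rintro t ⟨⟨ht1, ht2⟩, ht3⟩
        refine ⟨hE₁E ht1, ?_⟩
        -- centralizer of `t` in `E` is everything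
        set D := E ⊓ Subgroup.centralizer ({t} : Set G) with hD
        have hED : E₁ ≤ D := by
          intro a ha
          refine ⟨hE₁E ha, Subgroup.mem_centralizer_singleton_iff.mpr ?_⟩
          exact Subgroup.mem_centralizer_iff.mp ht2 a ha
        have hyD : y ∈ D := ⟨hyE, Subgroup.mem_centralizer_singleton_iff.mpr
          (Subgroup.mem_centralizer_singleton_iff.mp ht3).symm⟩
        have hDE : D = E := by
          apply Subgroup.eq_of_le_of_card_ge inf_le_left
          have h3 : Nat.card E₁ * E₁.relIndex D = Nat.card D := by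
            rw [← Subgroup.relIndex_bot_left, ← Subgroup.relIndex_bot_left D]
            exact Subgroup.relIndex_mul_relIndex _ _ _ bot_le hED
          have hDp : IsPGroup p D := hE.pg.to_le inf_le_left
          obtain ⟨m, hm⟩ := IsPGroup.iff_card.mp hDp
          have h4 : E₁.relIndex D ∣ p ^ m := by rw [← hm, ← h3]; exact Dvd.intro_left _ rfl
          obtain ⟨l, _, hl⟩ := (Nat.dvd_prime_pow hpp).mp h4
          have hl0 : l ≠ 0 := by
            rintro rfl
            rw [pow_zero, Subgroup.relIndex_eq_one] at hl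
            exact hyE₁ (hl hyD)
          have h5 : p ≤ E₁.relIndex D := by
            rw [hl]
            calc p = p ^ 1 := (pow_one p).symm
              _ ≤ p ^ l := Nat.pow_le_pow_right hpp.pos (by omega)
          calc Nat.card E ≤ p * Nat.card E₁ := hC1
            _ = Nat.card E₁ * p := mul_comm _ _
            _ ≤ Nat.card E₁ * E₁.relIndex D := Nat.mul_le_mul_left _ h5
            _ = Nat.card D := h3
        apply Subgroup.mem_centralizer_iff.mpr
        intro a ha
        have h6 : a ∈ D := by rw [hDE]; exact ha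
        exact Subgroup.mem_centralizer_singleton_iff.mp h6.2
      have hIH := ih E₁ V₁ (hE.mono hE₁E)
        ((le_inf (hE₁E.trans hEV) (inf_le_right.trans Subgroup.le_normalizer)).trans (Nz_inf_le _ _))
        (by
          have h6 : z ∈ Nz (Subgroup.centralizer ({x} : Set G)) :=
            Subgroup.le_normalizer (Subgroup.mem_centralizer_singleton_iff.mpr hxz.symm)
          exact Nz_inf_le _ _ ⟨hzV, h6⟩)
        ⟨⟨⟨fun a b => by
            apply Subtype.ext
            have h8 := congrArg Subtype.val (mul_comm' (⟨a, a.2.1⟩ : V) ⟨b, b.2.1⟩)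
            exact h8⟩⟩, fun a ha => hV.2 a ha.1⟩
        hV₁1
        (by
          rw [eq_bot_iff, ← hfix]
          exact inf_le_inf_right _ inf_le_left)
        (by
          have h7 : p * (p ^ (2 * w) * Nat.card (E₁ ⊓ Cz E₁ : Subgroup G)) ≤ p * Nat.card E₁ := by
            refine le_trans ?_ hC1
            refine le_trans ?_ hcard
            calc p * (p ^ (2 * w) * Nat.card (E₁ ⊓ Cz E₁ : Subgroup G))
                ≤ p * (p ^ (2 * w) * (p * Nat.card (E ⊓ Cz E : Subgroup G))) :=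
                  Nat.mul_le_mul_left _ (Nat.mul_le_mul_left _ hC2)
              _ = p ^ (2 * (w + 1)) * Nat.card (E ⊓ Cz E : Subgroup G) := by ring
          exact Nat.le_of_mul_le_mul_left h7 hpp.pos)
      calc r ^ (n * p ^ (w + 1)) = (r ^ (n * p ^ w)) ^ p := by rw [← pow_mul, pow_succ, mul_assoc]
        _ ≤ Nat.card V₁ ^ p := Nat.pow_le_pow_left hIH p
        _ ≤ Nat.card V := hprod

theorem final {r : ℕ} [hr : Fact r.Prime] (hpr : p ≠ r) (E A : Subgroup G) (w : ℕ) (hE : Cfsg.IsExtraspecial p ↥E)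
    (hEcard : Nat.card ↥E = p ^ (2 * w + 1)) (hA : Cfsg.IsElementaryAbelian r A)
    (hnorm : E ≤ Nz A) (hfaith : E ⊓ Cz A = ⊥) (n : ℕ) (hn : 1 ≤ n)
    (hdiv : p ∣ r ^ n - 1) (hmin : ∀ k : ℕ, 1 ≤ k → p ∣ r ^ k - 1 → n ≤ k) :
    r ^ (n * p ^ w) ≤ Nat.card ↥A := by
  have hpp : p.Prime := Fact.out
  obtain ⟨⟨hEp, hfr, hcom⟩, hc⟩ := hE
  have hcyc : IsCyclic (Subgroup.center E) := isCyclic_of_prime_card hc
  obtain ⟨z', hz'⟩ := IsCyclic.exists_generator (α := Subgroup.center E)
  set z : G := ((z' : E) : G) with hz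
  have hzE : z ∈ E := (z' : E).2
  have hzo : orderOf z = p := by
    rw [hz, Subgroup.orderOf_coe, Subgroup.orderOf_coe, orderOf_eq_card_of_forall_mem_zpowers hz', hc]
  have hcz : ∀ a : E, a ∈ Subgroup.center E ↔ (a : G) ∈ Subgroup.zpowers z := by
    intro a
    constructor
    · intro ha
      obtain ⟨k, hk⟩ := Subgroup.mem_zpowers_iff.mp (hz' ⟨a, ha⟩)
      refine Subgroup.mem_zpowers_iff.mpr ⟨k, ?_⟩
      have := congrArg (fun t : Subgroup.center E => ((t : E) : G)) hk
      simpa using this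
    · intro ha
      obtain ⟨k, hk⟩ := Subgroup.mem_zpowers_iff.mp ha
      have : a = ((z' ^ k : Subgroup.center E) : E) := by
        apply Subtype.ext
        rw [← hk]; simp [hz]
      rw [this]
      exact (z' ^ k).2
  have hCnd : Cnd p z E := by
    refine ⟨hEp, ?_, ?_, ?_⟩
    · intro a ha
      exact congrArg Subtype.val (Subgroup.mem_center_iff.mp z'.2 ⟨a, ha⟩)
    · intro a ha b hb
      have h1 : ⁅(⟨a, ha⟩ : E), ⟨b, hb⟩⁆ ∈ Subgroup.center E := by
        rw [← hcom]
        exact Subgroup.commutator_mem_commutator (Subgroup.mem_top _) (Subgroup.mem_top _)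
      rw [hcz] at h1
      exact h1
    · intro a ha
      have h1 : (⟨a, ha⟩ : E) ^ p ∈ Subgroup.center E := by
        rw [← hfr]
        exact (Cfsg.Agent.H1.Nilp.commutator_le_frattini hEp).2 _
      rw [hcz] at h1
      exact h1
  have hz1 : z ≠ 1 := by
    intro h1; rw [h1, orderOf_one] at hzo; exact hpp.one_lt.ne hzo
  have hAc := hA.1
  have hAp : IsPGroup r A := by
    intro v
    exact ⟨1, Subtype.ext (by rw [pow_one]; exact hA.2 v v.2)⟩
  have hcop : (Nat.card (Subgroup.zpowers z)).Coprime (Nat.card A) := by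
    obtain ⟨k, hk⟩ := IsPGroup.iff_card.mp hAp
    rw [hk, Nat.card_zpowers, hzo]
    exact Nat.Coprime.pow_right k ((Nat.coprime_primes hpp hr.out).mpr hpr)
  have hzA : Subgroup.zpowers z ≤ Nz A := by
    rw [Subgroup.zpowers_le]; exact hnorm hzE
  set V := ⁅A, Subgroup.zpowers z⁆ with hV
  have hVA : V ≤ A := Subgroup.le_normalizer_iff_commutator_le_left.mp hzA
  have h1 := Cfsg.Agent.H1.Coprime.inf_commutator_eq_bot_of_abelian (Subgroup.zpowers z) A hzA hcop
  have hCzz : Subgroup.centralizer ((Subgroup.zpowers z : Subgroup G) : Set G) = Subgroup.centralizer ({z} : Set G) := by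
    rw [Subgroup.zpowers_eq_closure, Subgroup.centralizer_closure]
  refine le_trans ?_ (Subgroup.card_le_of_le hVA)
  apply bound hzo hpr hdiv hn hmin w E V hCnd
  · refine le_trans (le_inf hnorm ?_) (Nz_commutator_le _ _)
    refine le_trans ?_ (Cz_le_Nz _)
    rw [le_Cz_comm, Subgroup.zpowers_le]
    exact Subgroup.mem_centralizer_iff.mpr fun a ha => hCnd.zc a ha
  · exact Subgroup.normalizer_commutator_ge_right _ _ (Subgroup.mem_zpowers z)
  · refine ⟨⟨⟨fun a b => ?_⟩⟩, fun a ha => hA.2 a (hVA ha)⟩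
    apply Subtype.ext
    have h8 := congrArg Subtype.val (mul_comm' (⟨a, hVA a.2⟩ : A) ⟨b, hVA b.2⟩)
    exact h8
  · intro h2
    rw [hV, Subgroup.commutator_comm, Subgroup.commutator_eq_bot_iff_le_centralizer] at h2
    have h3 : z ∈ E ⊓ Cz A := ⟨hzE, h2 (Subgroup.mem_zpowers z)⟩
    rw [hfaith, Subgroup.mem_bot] at h3
    exact hz1 h3
  · rw [eq_bot_iff, ← h1, hCzz]
    intro v hv
    exact ⟨⟨hVA hv.1, hv.2⟩, hv.1⟩
  · have h2 : Nat.card (E ⊓ Cz E : Subgroup G) ≤ p := by
      rw [← hzo, ← Nat.card_zpowers]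
      apply Subgroup.card_le_of_le
      rintro a ⟨ha, hac⟩
      rw [← hcz ⟨a, ha⟩, Subgroup.mem_center_iff]
      intro b
      exact Subtype.ext (Subgroup.mem_centralizer_iff.mp hac b b.2)
    rw [hEcard, pow_succ]
    exact Nat.mul_le_mul_left _ h2

end Cfsg.Agent.H17.XRep
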