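import Mathlib

/-!
# Irreducibility of natural modules as additive groups
-/

set_option autoImplicit false
set_option linter.unusedSectionVars false
set_option linter.unusedSimpArgs false

namespace Cfsg.Agent.H18.BB

open Matrix
open scoped commutatorElement

section sl2
variable {F : Type*} [Field F]

def t12 (x : F) : SpecialLinearGroup (Fin 2) F := ⟨!![1, x; 0, 1], by simp [det_fin_two]⟩
def t21 (x : F) : SpecialLinearGroup (Fin 2) F := ⟨!![1, 0; x, 1], by simp [det_fin_two]⟩
def dg (a : F) (ha : a ≠ 0) : SpecialLinearGroup (Fin 2) F := ⟨!![a, 0; 0, a⁻¹], by simp [det_fin_two, ha]⟩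

theorem coe_t12 (x : F) : ((t12 x : SpecialLinearGroup (Fin 2) F) : Matrix (Fin 2) (Fin 2) F) = !![1, x; 0, 1] := rfl
theorem coe_t21 (x : F) : ((t21 x : SpecialLinearGroup (Fin 2) F) : Matrix (Fin 2) (Fin 2) F) = !![1, 0; x, 1] := rfl
theorem coe_dg (a : F) (ha : a ≠ 0) : ((dg a ha : SpecialLinearGroup (Fin 2) F) : Matrix (Fin 2) (Fin 2) F) =
    !![a, 0; 0, a⁻¹] := rfl

def cc : SpecialLinearGroup (Fin 2) F := ⟨!![3, -1; 1, 0], by simp [det_fin_two]⟩
theorem coe_cc : ((cc : SpecialLinearGroup (Fin 2) F) : Matrix (Fin 2) (Fin 2) F) = !![3, -1; 1, 0] := rfl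

theorem comm_t12 (a : F) (ha : a ≠ 0) (x : F) : ⁅dg a ha, t12 x⁆ = t12 (a * a * x - x) := by
  have h : dg a ha * t12 x = t12 (a * a * x - x) * t12 x * dg a ha := by
    refine Matrix.SpecialLinearGroup.ext _ _ fun i j => ?_
    rw [Matrix.SpecialLinearGroup.coe_mul, Matrix.SpecialLinearGroup.coe_mul, Matrix.SpecialLinearGroup.coe_mul, coe_dg, coe_t12, coe_t12]
    fin_cases i <;> fin_cases j <;> simp [Matrix.mul_apply, Fin.sum_univ_two]
    field_simp
  rw [commutatorElement_def, h]; group

theorem comm_t21 (a : F) (ha : a ≠ 0) (x : F) : ⁅dg a⁻¹ (inv_ne_zero ha), t21 x⁆ = t21 (a * a * x - x) := by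
  have h : dg a⁻¹ (inv_ne_zero ha) * t21 x = t21 (a * a * x - x) * t21 x * dg a⁻¹ (inv_ne_zero ha) := by
    refine Matrix.SpecialLinearGroup.ext _ _ fun i j => ?_
    rw [Matrix.SpecialLinearGroup.coe_mul, Matrix.SpecialLinearGroup.coe_mul, Matrix.SpecialLinearGroup.coe_mul, coe_dg, coe_t21, coe_t21]
    fin_cases i <;> fin_cases j <;> simp [Matrix.mul_apply, Fin.sum_univ_two]
    field_simp
  rw [commutatorElement_def, h]; group

theorem comm_t12_t21 : (⁅t12 (1 : F), t21 1⁆ : SpecialLinearGroup (Fin 2) F) = cc := by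
  have h : t12 (1 : F) * t21 1 = cc * t21 1 * t12 1 := by
    refine Matrix.SpecialLinearGroup.ext _ _ fun i j => ?_
    rw [Matrix.SpecialLinearGroup.coe_mul, Matrix.SpecialLinearGroup.coe_mul, Matrix.SpecialLinearGroup.coe_mul, coe_cc, coe_t21, coe_t12]
    fin_cases i <;> fin_cases j <;> simp [Matrix.mul_apply, Fin.sum_univ_two] <;> norm_num
  rw [commutatorElement_def, h]; group

/-- the derived subgroup of `SL₂(F)` acts irreducibly, additively, on `F²` -/
theorem sl2_irred (M : AddSubgroup (Fin 2 → F))
    (hM : ∀ g ∈ commutator (SpecialLinearGroup (Fin 2) F), ∀ v ∈ M,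
      (g : Matrix (Fin 2) (Fin 2) F).mulVec v ∈ M) : M = ⊥ ∨ M = ⊤ := by
  by_cases hb : M = ⊥
  · exact Or.inl hb
  right
  obtain ⟨v, hv, hv0⟩ : ∃ v ∈ M, v ≠ 0 := by
    by_contra hc
    push_neg at hc
    exact hb ((AddSubgroup.eq_bot_iff_forall _).mpr hc)
  by_cases hA : ∃ a : F, a ≠ 0 ∧ a * a ≠ 1
  · obtain ⟨a, ha, haa⟩ := hA
    have hd : a * a - 1 ≠ 0 := sub_ne_zero.mpr haa
    have h12 : ∀ y : F, t12 y ∈ commutator (SpecialLinearGroup (Fin 2) F) := by
      intro y
      have := comm_t12 a ha (y / (a * a - 1))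
      have e : a * a * (y / (a * a - 1)) - y / (a * a - 1) = y := by
        rw [← mul_div_assoc, ← sub_div, div_eq_iff hd]; ring
      rw [e] at this
      rw [← this]
      exact Subgroup.commutator_mem_commutator (Subgroup.mem_top _) (Subgroup.mem_top _)
    have h21 : ∀ y : F, t21 y ∈ commutator (SpecialLinearGroup (Fin 2) F) := by
      intro y
      have := comm_t21 a ha (y / (a * a - 1))
      have e : a * a * (y / (a * a - 1)) - y / (a * a - 1) = y := by
        rw [← mul_div_assoc, ← sub_div, div_eq_iff hd]; ring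
      rw [e] at this
      rw [← this]
      exact Subgroup.commutator_mem_commutator (Subgroup.mem_top _) (Subgroup.mem_top _)
    -- from a vector with nonzero second coordinate
    have k1 : ∀ u ∈ M, u 1 ≠ 0 → ∀ c : F, (![c, 0] : Fin 2 → F) ∈ M := by
      intro u hu hu1 c
      have := M.sub_mem (hM _ (h12 (c / u 1)) u hu) hu
      convert this using 1
      ext i
      fin_cases i
      · simp [t12, mulVec, vecHead, vecTail]
        field_simp
      · simp [t12, mulVec, vecHead, vecTail]
    have k2 : ∀ u ∈ M, u 0 ≠ 0 → ∀ c : F, (![0, c] : Fin 2 → F) ∈ M := by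
      intro u hu hu1 c
      have := M.sub_mem (hM _ (h21 (c / u 0)) u hu) hu
      convert this using 1
      ext i
      fin_cases i
      · simp [t21, mulVec, vecHead, vecTail]
      · simp [t21, mulVec, vecHead, vecTail]
        field_simp
    have k3 : (∀ c : F, (![c, 0] : Fin 2 → F) ∈ M) ∧ (∀ c : F, (![0, c] : Fin 2 → F) ∈ M) := by
      by_cases h1 : v 1 = 0
      · have h0 : v 0 ≠ 0 := by
          intro h0
          apply hv0
          ext i
          fin_cases i
          · exact h0
          · exact h1
        have := k2 v hv h0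
        exact ⟨k1 _ (this 1) (by simp), this⟩
      · have := k1 v hv h1
        exact ⟨this, k2 _ (this 1) (by simp)⟩
    rw [eq_top_iff]
    intro u _
    have : u = ![u 0, 0] + ![0, u 1] := by
      ext i; fin_cases i <;> simp
    rw [this]
    exact M.add_mem (k3.1 _) (k3.2 _)
  · push_neg at hA
    have hF : ∀ a : F, a = 0 ∨ a = 1 ∨ a = -1 := by
      intro a
      by_cases ha : a = 0
      · exact Or.inl ha
      · right
        have := hA a ha
        have h2 : (a - 1) * (a + 1) = 0 := by ring_nf; rw [pow_two, this]; ring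
        rcases mul_eq_zero.mp h2 with h | h
        · left; exact sub_eq_zero.mp h
        · right; exact eq_neg_of_add_eq_zero_left h
    have hs : ∀ s : F, ∀ u ∈ M, s • u ∈ M := by
      intro s u hu
      rcases hF s with rfl | rfl | rfl
      · simp [M.zero_mem]
      · simpa using hu
      · simpa using M.neg_mem hu
    have hw := hM _ (Subgroup.commutator_mem_commutator (Subgroup.mem_top (t12 (1 : F))) (Subgroup.mem_top (t21 1))) v hv
    rw [comm_t12_t21, coe_cc] at hw
    have hΔ : v 0 * v 0 - 3 * v 0 * v 1 + v 1 * v 1 ≠ 0 := by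
      intro hc
      have h3 : (3 : F) = 0 ∨ (2 : F) = 0 := by
        rcases hF 2 with h | h | h
        · exact Or.inr h
        · exfalso
          have : (1 : F) = 0 := by linear_combination h
          exact one_ne_zero this
        · left; linear_combination h
      rcases hF (v 0) with h0 | h0 | h0 <;> rcases hF (v 1) with h1 | h1 | h1 <;> rw [h0, h1] at hc
      · apply hv0; ext i; fin_cases i
        · exact h0
        · exact h1
      · apply one_ne_zero (α := F); linear_combination hc
      · apply one_ne_zero (α := F); linear_combination hc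
      · apply one_ne_zero (α := F); linear_combination hc
      · apply one_ne_zero (α := F); linear_combination (-1 : F) * hc
      · rcases h3 with h3 | h3
        · apply one_ne_zero (α := F); linear_combination 2 * h3 - hc
        · apply one_ne_zero (α := F); linear_combination hc - 2 * h3
      · apply one_ne_zero (α := F); linear_combination hc
      · rcases h3 with h3 | h3
        · apply one_ne_zero (α := F); linear_combination 2 * h3 - hc
        · apply one_ne_zero (α := F); linear_combination hc - 2 * h3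
      · apply one_ne_zero (α := F); linear_combination (-1 : F) * hc
    rw [eq_top_iff]
    intro u _
    set Δ := v 0 * v 0 - 3 * v 0 * v 1 + v 1 * v 1 with hΔd
    have : u = ((u 0 * v 0 - u 1 * (3 * v 0 - v 1)) / Δ) • v +
        ((v 0 * u 1 - v 1 * u 0) / Δ) • (!![3, -1; 1, 0] : Matrix (Fin 2) (Fin 2) F).mulVec v := by
      ext i
      fin_cases i
      · simp [mulVec, vecHead, vecTail]
        field_simp
        rw [hΔd]; ring
      · simp [mulVec, vecHead, vecTail]
        field_simp
        rw [hΔd]; ring
    rw [this]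
    exact M.add_mem (hs _ _ hv) (hs _ _ hw)

/-- some element of the derived subgroup has no nonzero fixed vector -/
theorem sl2_fix {v : Fin 2 → F} (h : (!![3, -1; 1, 0] : Matrix (Fin 2) (Fin 2) F).mulVec v = v) : v = 0 := by
  have h0 := congrFun h 0
  have h1 := congrFun h 1
  simp [mulVec, vecHead, vecTail] at h0 h1
  have h2 : v 0 = 0 := by linear_combination h0 - h1
  ext i
  fin_cases i
  · exact h2
  · simp only [Fin.mk_one, Pi.zero_apply]; rw [← h1]; exact h2

end sl2

section perm
variable {n : ℕ}

theorem mem_alt (i j k : Fin n) (hij : i ≠ j) (hjk : j ≠ k) :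
    Equiv.swap i j * Equiv.swap j k ∈ alternatingGroup (Fin n) := by
  rw [Equiv.Perm.mem_alternatingGroup, Equiv.Perm.sign_mul, Equiv.Perm.sign_swap hij, Equiv.Perm.sign_swap hjk]
  simp

def ee (a b : Fin n) : Fin n → ZMod 2 := Pi.single a 1 + Pi.single b 1

theorem ee_self (a : Fin n) : ee a a = 0 := by
  ext x
  simp only [ee, Pi.add_apply, Pi.zero_apply]
  exact CharTwo.add_self_eq_zero _

theorem ee_add (a b c : Fin n) : ee a b + ee b c = ee a c := by
  ext x
  simp only [ee, Pi.add_apply]
  have := CharTwo.add_self_eq_zero ((Pi.single b 1 : Fin n → ZMod 2) x)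
  linear_combination this

theorem ee_comm (a b : Fin n) : ee a b = ee b a := by
  simp only [ee]; rw [add_comm]

theorem perm_irred (hn : Odd n) (M : AddSubgroup (Fin n → ZMod 2)) (hev : ∀ v ∈ M, ∑ i, v i = 0)
    (hM : ∀ σ ∈ alternatingGroup (Fin n), ∀ v ∈ M, (fun i => v (σ⁻¹ i)) ∈ M) :
    M = ⊥ ∨ ∀ v : Fin n → ZMod 2, ∑ i, v i = 0 → v ∈ M := by
  by_cases hb : M = ⊥
  · exact Or.inl hb
  right
  obtain ⟨v, hv, hv0⟩ : ∃ v ∈ M, v ≠ 0 := by
    by_contra hc
    push_neg at hc
    exact hb ((AddSubgroup.eq_bot_iff_forall _).mpr hc)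
  have h01 : ∀ x : ZMod 2, x = 0 ∨ x = 1 := by decide
  obtain ⟨i, hi⟩ : ∃ i, v i = 1 := by
    by_contra hc
    push_neg at hc
    apply hv0
    ext x
    rcases h01 (v x) with h | h
    · exact h
    · exact absurd h (hc x)
  obtain ⟨j, hj⟩ : ∃ j, v j = 0 := by
    by_contra hc
    push_neg at hc
    have h1 : ∀ x, v x = 1 := fun x => (h01 (v x)).resolve_left (hc x)
    have h2 := hev v hv
    simp only [h1, Finset.sum_const, Finset.card_univ, Fintype.card_fin, nsmul_eq_mul, mul_one] at h2
    rw [ZMod.natCast_eq_zero_iff] at h2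
    rw [Nat.odd_iff] at hn
    omega
  have hij : i ≠ j := by
    rintro rfl
    rw [hi] at hj; exact one_ne_zero hj
  obtain ⟨k, hk⟩ : ∃ k : Fin n, k ≠ i ∧ k ≠ j := by
    by_contra hc
    push_neg at hc
    have h1 : (Finset.univ : Finset (Fin n)) ⊆ {i, j} := by
      intro x _
      by_cases hx : x = i
      · simp [hx]
      · simp [hc x hx]
    have h2 := Finset.card_le_card h1
    rw [Finset.card_univ, Fintype.card_fin, Finset.card_pair hij] at h2
    have h3 : 1 < n := by
      have := i.2; have := j.2
      rcases Nat.lt_or_ge 1 n with h | h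
      · exact h
      · exfalso; apply hij; ext; omega
    rw [Nat.odd_iff] at hn
    omega
  obtain ⟨hki, hkj⟩ := hk
  have key : ∃ a b : Fin n, a ≠ b ∧ ee a b ∈ M := by
    have h1 := M.add_mem hv (hM _ (mem_alt i j k hij hkj.symm) v hv)
    rcases h01 (v k) with hvk | hvk
    · refine ⟨i, j, hij, ?_⟩
      convert h1 using 1
      ext x
      simp only [ee, Pi.add_apply, _root_.mul_inv_rev, Equiv.swap_inv, Equiv.Perm.mul_apply]
      by_cases hxi : x = i
      · subst hxi
        rw [Equiv.swap_apply_left, Equiv.swap_apply_left, hi, hvk]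
        simp [hij]
      · by_cases hxj : x = j
        · subst hxj
          rw [Equiv.swap_apply_right, Equiv.swap_apply_of_ne_of_ne hij hki.symm, hi, hj]
          simp [hij.symm]
        · rw [Equiv.swap_apply_of_ne_of_ne hxi hxj]
          by_cases hxk : x = k
          · subst hxk
            rw [Equiv.swap_apply_right, hvk, hj]
            simp [hxi, hxj]
          · rw [Equiv.swap_apply_of_ne_of_ne hxj hxk, CharTwo.add_self_eq_zero]
            simp [hxi, hxj]
    · refine ⟨j, k, hkj.symm, ?_⟩
      convert h1 using 1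
      ext x
      simp only [ee, Pi.add_apply, _root_.mul_inv_rev, Equiv.swap_inv, Equiv.Perm.mul_apply]
      by_cases hxi : x = i
      · subst hxi
        rw [Equiv.swap_apply_left, Equiv.swap_apply_left, hi, hvk]
        simp only [Pi.single_eq_of_ne hij, Pi.single_eq_of_ne hki.symm]
        exact (CharTwo.add_self_eq_zero (1 : ZMod 2)).symm
      · by_cases hxj : x = j
        · subst hxj
          rw [Equiv.swap_apply_right, Equiv.swap_apply_of_ne_of_ne hij hki.symm, hi, hj]
          simp [hkj.symm]
        · rw [Equiv.swap_apply_of_ne_of_ne hxi hxj]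
          by_cases hxk : x = k
          · subst hxk
            rw [Equiv.swap_apply_right, hvk, hj]
            simp [hxi, hxj]
          · rw [Equiv.swap_apply_of_ne_of_ne hxj hxk, CharTwo.add_self_eq_zero]
            simp [hxk, hxj]
  obtain ⟨a, b, hab, hM1⟩ := key
  have h2 : ∀ c, ee b c ∈ M := by
    intro c
    by_cases hcb : c = b
    · rw [hcb, ee_self]; exact M.zero_mem
    · by_cases hca : c = a
      · rw [hca, ee_comm]; exact hM1
      · have h3 := hM _ (mem_alt a b c hab (Ne.symm hcb)) _ hM1
        -- σ⁻¹ a = c, σ⁻¹ b = a, σ⁻¹ c = b : the image is e_b + e_c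
        convert h3 using 1
        ext x
        simp only [ee, Pi.add_apply, _root_.mul_inv_rev, Equiv.swap_inv, Equiv.Perm.mul_apply]
        by_cases hxa : x = a
        · subst hxa
          rw [Equiv.swap_apply_left, Equiv.swap_apply_left]
          simp [hab, Ne.symm hca, hca, hcb]
        · by_cases hxb : x = b
          · subst hxb
            rw [Equiv.swap_apply_right, Equiv.swap_apply_of_ne_of_ne hab (Ne.symm hca)]
            simp [hab, Ne.symm hcb]
          · rw [Equiv.swap_apply_of_ne_of_ne hxa hxb]
            by_cases hxc : x = c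
            · subst hxc
              rw [Equiv.swap_apply_right]
              simp [hab.symm, hxb]
            · rw [Equiv.swap_apply_of_ne_of_ne hxb hxc]
              simp [hxa, hxb, hxc]
  intro w hw
  have h4 : w = ∑ x, w x • ee b x := by
    ext y
    simp only [Finset.sum_apply, Pi.smul_apply, ee, Pi.add_apply, smul_eq_mul, mul_add, Finset.sum_add_distrib]
    rw [← Finset.sum_mul, hw, zero_mul, zero_add]
    simp [Pi.single_apply]
  rw [h4]
  apply M.sum_mem
  intro x _
  rcases h01 (w x) with h | h
  · rw [h]; simp [M.zero_mem]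
  · rw [h, one_smul]; exact h2 x

end perm

end Cfsg.Agent.H18.BB
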