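import Mathlib
import Cfsg.Agent.H18_BB1
import Cfsg.Agent.H18_BB2
import Cfsg.Agent.H11_AxB

/-!
# Blocks relative to the Baumann subgroup: the natural module
-/

set_option autoImplicit false
set_option linter.unusedSectionVars false
set_option linter.unusedSimpArgs false
set_option linter.style.haveILetI false

namespace Cfsg.Agent.H18.BB

open Subgroup Pointwise
open scoped commutatorElement
open Cfsg.Agent.H13.Syl
open Cfsg.Agent.H18.CharP
open Cfsg.Agent.H12.ZJ
open Cfsg.Agent.H18.KS (commutator_le_left_of le_norm_of_comm mem_sup_of_norm mul_pow_mem le_normalizer_iff_conj)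

variable {G : Type*} [Group G]

/-- `E` acts irreducibly on `W / Z` and some element of `E` moves `W` modulo `Z` -/
def NatSec (E W Z : Subgroup G) : Prop :=
  (∀ X : Subgroup G, Z ≤ X → X ≤ W → E ≤ normalizer (X : Set G) → X = Z ∨ X = W) ∧ ¬ ⁅W, E⁆ ≤ Z

theorem natSec_of_SL2 {F : Type*} [Field F] {E W Z : Subgroup G}
    (h : ActsAsSL2OnSection F (commutator (Matrix.SpecialLinearGroup (Fin 2) F)) E W Z) : NatSec E W Z := by
  obtain ⟨hEW, hZW, ρ, ψ, hρ, hψ, hker, hact⟩ := h
  constructor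
  · intro X hZX hXW hEX
    set M : AddSubgroup (Fin 2 → F) :=
      { carrier := {v | ∃ u : ↥W, (u : G) ∈ X ∧ Multiplicative.toAdd (ψ u) = v}
        zero_mem' := ⟨1, X.one_mem, by simp⟩
        add_mem' := by
          rintro _ _ ⟨u, hu, rfl⟩ ⟨w, hw, rfl⟩
          exact ⟨u * w, X.mul_mem hu hw, by simp⟩
        neg_mem' := by
          rintro _ ⟨u, hu, rfl⟩
          exact ⟨u⁻¹, X.inv_mem hu, by simp⟩ } with hM
    have h1 := sl2_irred M (by
      rintro g hg v ⟨u, hu, rfl⟩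
      rw [← hρ] at hg
      obtain ⟨e, rfl⟩ := hg
      obtain ⟨w, hw, hw2⟩ := hact e u
      refine ⟨w, ?_, hw2⟩
      rw [hw]
      exact (mem_normalizer_iff.mp (hEX e.2) _).mp hu)
    rcases h1 with h1 | h1
    · left
      refine le_antisymm (fun x hx => ?_) hZX
      have h2 : Multiplicative.toAdd (ψ ⟨x, hXW hx⟩) ∈ M := ⟨⟨x, hXW hx⟩, hx, rfl⟩
      rw [h1, AddSubgroup.mem_bot] at h2
      exact (hker ⟨x, hXW hx⟩).mp (by
        apply Multiplicative.toAdd.injective
        rw [h2]; simp)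
    · right
      refine le_antisymm hXW (fun x hx => ?_)
      have h2 : Multiplicative.toAdd (ψ ⟨x, hx⟩) ∈ M := by rw [h1]; exact AddSubgroup.mem_top _
      obtain ⟨u, hu, hu2⟩ := h2
      have h3 : ψ (⟨x, hx⟩ * u⁻¹) = 1 := by
        rw [map_mul, map_inv, mul_inv_eq_one]
        exact (Multiplicative.toAdd.injective hu2).symm
      have h4 := (hker _).mp h3
      have h5 : x = (x * (u : G)⁻¹) * u := by group
      rw [h5]
      exact X.mul_mem (hZX h4) hu
  · intro hle
    have hcc : (cc : Matrix.SpecialLinearGroup (Fin 2) F) ∈ ρ.range := by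
      rw [hρ, ← comm_t12_t21]
      exact Subgroup.commutator_mem_commutator (Subgroup.mem_top _) (Subgroup.mem_top _)
    obtain ⟨e, he⟩ := hcc
    obtain ⟨u, hu⟩ := hψ (Multiplicative.ofAdd (![1, 0] : Fin 2 → F))
    obtain ⟨w, hw, hw2⟩ := hact e u
    have h1 : ψ (w * u⁻¹) = 1 := by
      rw [hker]
      apply hle
      have h2 : (u : G) * e * (u : G)⁻¹ * (e : G)⁻¹ ∈ ⁅W, E⁆ := commutator_mem_commutator u.2 e.2
      have h3 : ((w * u⁻¹ : ↥W) : G) = ((u : G) * e * (u : G)⁻¹ * (e : G)⁻¹)⁻¹ := by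
        rw [coe_mul, hw, coe_inv]; group
      rw [h3]; exact inv_mem h2
    rw [map_mul, map_inv, mul_inv_eq_one] at h1
    rw [h1, he, coe_cc, hu] at hw2
    have h4 : (![1, 0] : Fin 2 → F) = 0 := sl2_fix hw2.symm
    have := congrFun h4 0
    simp at this

theorem natSec_of_perm {m : ℕ} (hm : m ≠ 0) {E W Z : Subgroup G}
    (h : ActsAsOddPermModuleOnSection (2 * m + 1) (alternatingGroup (Fin (2 * m + 1))) E W Z) : NatSec E W Z := by
  obtain ⟨hEW, hZW, ρ, ψ, hρ, hψ0, hψ, hker, hact⟩ := h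
  constructor
  · intro X hZX hXW hEX
    set M : AddSubgroup (Fin (2 * m + 1) → ZMod 2) :=
      { carrier := {v | ∃ u : ↥W, (u : G) ∈ X ∧ Multiplicative.toAdd (ψ u) = v}
        zero_mem' := ⟨1, X.one_mem, by simp⟩
        add_mem' := by
          rintro _ _ ⟨u, hu, rfl⟩ ⟨w, hw, rfl⟩
          exact ⟨u * w, X.mul_mem hu hw, by simp⟩
        neg_mem' := by
          rintro _ ⟨u, hu, rfl⟩
          exact ⟨u⁻¹, X.inv_mem hu, by simp⟩ } with hM
    have h1 := perm_irred ⟨m, rfl⟩ M (by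
      rintro v ⟨u, hu, rfl⟩
      exact hψ0 u) (by
      rintro g hg v ⟨u, hu, rfl⟩
      rw [← hρ] at hg
      obtain ⟨e, rfl⟩ := hg
      obtain ⟨w, hw, hw2⟩ := hact e u
      refine ⟨w, ?_, ?_⟩
      · rw [hw]
        exact (mem_normalizer_iff.mp (hEX e.2) _).mp hu
      · ext i; exact hw2 i)
    rcases h1 with h1 | h1
    · left
      refine le_antisymm (fun x hx => ?_) hZX
      have h2 : Multiplicative.toAdd (ψ ⟨x, hXW hx⟩) ∈ M := ⟨⟨x, hXW hx⟩, hx, rfl⟩
      rw [h1, AddSubgroup.mem_bot] at h2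
      exact (hker ⟨x, hXW hx⟩).mp (by
        apply Multiplicative.toAdd.injective
        rw [h2]; simp)
    · right
      refine le_antisymm hXW (fun x hx => ?_)
      obtain ⟨u, hu, hu2⟩ := h1 _ (hψ0 ⟨x, hx⟩)
      have h3 : ψ (⟨x, hx⟩ * u⁻¹) = 1 := by
        rw [map_mul, map_inv, mul_inv_eq_one]
        exact (Multiplicative.toAdd.injective hu2).symm
      have h4 := (hker _).mp h3
      have h5 : x = (x * (u : G)⁻¹) * u := by group
      rw [h5]
      exact X.mul_mem (hZX h4) hu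
  · intro hle
    have h0 : (0 : ℕ) < 2 * m + 1 := by omega
    have h1 : (1 : ℕ) < 2 * m + 1 := by omega
    have h2 : (2 : ℕ) < 2 * m + 1 := by omega
    set a : Fin (2 * m + 1) := ⟨0, h0⟩ with ha
    set b : Fin (2 * m + 1) := ⟨1, h1⟩ with hb
    set c : Fin (2 * m + 1) := ⟨2, h2⟩ with hc
    have hab : a ≠ b := by simp [ha, hb]
    have hbc : b ≠ c := by simp [hb, hc]
    have hac : a ≠ c := by simp [ha, hc]
    have hcc := mem_alt a b c hab hbc
    rw [← hρ] at hcc
    obtain ⟨e, he⟩ := hcc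
    obtain ⟨u, hu⟩ := hψ (ee a b) (by
      simp only [ee, Pi.add_apply, Finset.sum_add_distrib]
      simp only [Finset.sum_pi_single', Finset.mem_univ, if_true]
      exact CharTwo.add_self_eq_zero _)
    obtain ⟨w, hw, hw2⟩ := hact e u
    have h1 : ψ (w * u⁻¹) = 1 := by
      rw [hker]
      apply hle
      have h2 : (u : G) * e * (u : G)⁻¹ * (e : G)⁻¹ ∈ ⁅W, E⁆ := commutator_mem_commutator u.2 e.2
      have h3 : ((w * u⁻¹ : ↥W) : G) = ((u : G) * e * (u : G)⁻¹ * (e : G)⁻¹)⁻¹ := by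
        rw [coe_mul, hw, coe_inv]; group
      rw [h3]; exact inv_mem h2
    rw [map_mul, map_inv, mul_inv_eq_one] at h1
    have h4 := hw2 a
    rw [h1, he, hu] at h4
    simp only [_root_.mul_inv_rev, Equiv.swap_inv, Equiv.Perm.mul_apply, Equiv.swap_apply_left, ee, Pi.add_apply,
      Pi.single_eq_same, Pi.single_eq_of_ne hab, Pi.single_eq_of_ne hac.symm, Pi.single_eq_of_ne hbc.symm] at h4
    simp at h4

/-- nilpotent action -/
theorem le_of_le_comm_sup {U V P : Subgroup G} (hP : Group.IsNilpotent ↥P) (hU : U ≤ P) (hV : P ≤ normalizer (V : Set G))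
    (h : U ≤ ⁅U, P⁆ ⊔ V) : U ≤ V := by
  obtain ⟨n, hn⟩ := (Subgroup.isNilpotent_iff_lowerCentralSeries P).1 hP
  have key : ∀ k, U ≤ V ⊔ P.lowerCentralSeries k := by
    intro k
    induction k with
    | zero => exact hU.trans le_sup_right
    | succ k ih =>
      refine h.trans (sup_le ?_ le_sup_left)
      rw [commutator_le]
      intro u hu x hx
      have hLP : P.lowerCentralSeries k ≤ P := by
        have := Subgroup.lowerCentralSeries_antitone (G := G) P (Nat.zero_le k)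
        exact this
      obtain ⟨v, hv, l, hl, rfl⟩ := mem_sup_of_norm (hLP.trans hV) (ih hu)
      have e : ⁅v * l, x⁆ = v * ⁅l, x⁆ * (x * v⁻¹ * x⁻¹) := by
        simp only [commutatorElement_def]; group
      rw [e]
      have h1 : x * v⁻¹ * x⁻¹ ∈ V := (mem_normalizer_iff.mp (hV hx) _).mp (inv_mem hv)
      refine mul_mem (mul_mem (mem_sup_left hv) (mem_sup_right ?_)) (mem_sup_left h1)
      rw [Subgroup.lowerCentralSeries_succ]
      exact commutator_mem_commutator hl hx
  have := key n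
  rwa [hn, sup_bot_eq] at this

/-- a `p`-group commuting with `E` modulo the kernel acts trivially on the section -/
theorem comm_le_of_natSec [Finite G] {p : ℕ} [Fact p.Prime] {E W Z R : Subgroup G} (hns : NatSec E W Z) (hZW : Z ≤ W)
    (hW : IsPGroup p ↥W) (hR : IsPGroup p ↥R) (hRW : R ≤ normalizer (W : Set G)) (hRZ : R ≤ normalizer (Z : Set G))
    (hEW : E ≤ normalizer (W : Set G)) (hEZ : E ≤ normalizer (Z : Set G)) (hWZ : W ≤ normalizer (Z : Set G))
    (hcomm : ∀ e ∈ E, ∀ r ∈ R, ∃ c ∈ centralizer (W : Set G), e * r * e⁻¹ = r * c)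
    (habW : ∀ a ∈ W, ∀ b ∈ W, a * b = b * a) : ⁅W, R⁆ ≤ Z := by
  have hK : ⁅W, R⁆ ≤ W := commutator_le_left_of hRW
  have hEK : E ≤ normalizer ((⁅W, R⁆ ⊔ Z : Subgroup G) : Set G) := by
    rw [le_normalizer_iff_conj]
    intro e he
    have : cj e (⁅W, R⁆ ⊔ Z) ≤ ⁅W, R⁆ ⊔ Z := by
      rw [cj_sup]
      refine sup_le (le_trans ?_ le_sup_left) (le_trans (le_of_eq (cj_eq_of_mem_normalizer (hEZ he))) le_sup_right)
      rw [cj_commutator, commutator_le]
      intro w hw r hr
      rw [mem_cj] at hw hr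
      obtain ⟨c, hc, hcr⟩ := hcomm e he _ hr
      have e1 : r = (e⁻¹ * r * e) * c := by rw [← hcr]; group
      have hw' : w ∈ W := by
        have := (mem_normalizer_iff.mp (hEW he) _).mp hw
        have e2 : e * (e⁻¹ * w * e) * e⁻¹ = w := by group
        rwa [e2] at this
      have hcw : w * c = c * w := by
        have := hc w hw'
        exact this
      have hcw2 : ∀ x ∈ W, x * c = c * x := fun x hx => hc x hx
      have e3 : ⁅w, r⁆ = ⁅w, e⁻¹ * r * e⁆ := by
        conv_lhs => rw [e1]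
        simp only [commutatorElement_def]
        have h5 : w⁻¹ * c = c * w⁻¹ := hcw2 _ (inv_mem hw')
        calc w * (e⁻¹ * r * e * c) * w⁻¹ * (e⁻¹ * r * e * c)⁻¹
            = w * (e⁻¹ * r * e) * (c * w⁻¹) * c⁻¹ * (e⁻¹ * r * e)⁻¹ := by group
          _ = w * (e⁻¹ * r * e) * (w⁻¹ * c) * c⁻¹ * (e⁻¹ * r * e)⁻¹ := by rw [h5]
          _ = w * (e⁻¹ * r * e) * w⁻¹ * (e⁻¹ * r * e)⁻¹ := by group
      rw [e3]
      exact commutator_mem_commutator hw' hr
    intro k hk
    exact cj_le_iff_forall.mp this k hk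
  rcases hns.1 (⁅W, R⁆ ⊔ Z) le_sup_right (sup_le hK hZW) hEK with h | h
  · rw [← h]; exact le_sup_left
  · have hP : IsPGroup p ↥(W ⊔ R : Subgroup G) := hW.to_sup_of_normal_left' hR hRW
    have h1 : W ≤ Z := by
      refine le_of_le_comm_sup (P := W ⊔ R) hP.isNilpotent le_sup_left (sup_le hWZ hRZ) ?_
      conv_lhs => rw [← h]
      exact sup_le_sup_right (commutator_mono le_rfl le_sup_right) _
    exact hK.trans h1

end Cfsg.Agent.H18.BB
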