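import Mathlib
import Cfsg.Agent.H18_BB3
import Cfsg.Agent.H13_Bad2

/-!
# Blocks relative to the Baumann subgroup: elementary properties
-/

set_option autoImplicit false
set_option linter.unusedSectionVars false
set_option linter.unusedSimpArgs false
set_option linter.style.haveILetI false

namespace Cfsg.Agent.H18.BB

open Subgroup Pointwise
open scoped commutatorElement
open Cfsg.Agent.H13.Syl
open Cfsg.Agent.H18.CharP
open Cfsg.Agent.H12.ZJ
open Cfsg.Agent.H18.KS (commutator_le_left_of le_norm_of_comm mem_sup_of_norm mul_pow_mem le_normalizer_iff_conj)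

variable {G : Type*} [Group G]

/-- `Ω₁(Z(O_p(E)))` -/
abbrev WW (p : ℕ) (E : Subgroup G) : Subgroup G := omegaOneCenter p (pCoreOf p E)
/-- `C_W(E)` -/
abbrev ZZ (p : ℕ) (E : Subgroup G) : Subgroup G := WW p E ⊓ centralizer (E : Set G)
/-- `[W, E]` -/
abbrev WE (p : ℕ) (E : Subgroup G) : Subgroup G := ⁅WW p E, E⁆

section
variable [Finite G] {p : ℕ}

theorem oz_le (H : Subgroup G) : omegaOneCenter p H ≤ H := by
  unfold omegaOneCenter omegaOne
  rw [closure_le]
  rintro x ⟨hx, -⟩
  exact hx.1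

theorem oz_le_cent (H : Subgroup G) : omegaOneCenter p H ≤ centralizer (H : Set G) := by
  unfold omegaOneCenter omegaOne
  rw [closure_le]
  rintro x ⟨hx, -⟩
  exact hx.2

theorem mem_oz {H : Subgroup G} {x : G} (hx : x ∈ H) (hc : ∀ h ∈ H, h * x = x * h) (hp : x ^ p = 1) :
    x ∈ omegaOneCenter p H :=
  subset_closure ⟨⟨hx, fun h hh => hc h hh⟩, hp⟩

theorem oz_comm (H : Subgroup G) : ∀ a ∈ omegaOneCenter p H, ∀ b ∈ omegaOneCenter p H, a * b = b * a :=
  fun a ha _ hb => oz_le_cent H hb a (oz_le H ha)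

theorem oz_pow (H : Subgroup G) : ∀ a ∈ omegaOneCenter p H, a ^ p = 1 := by
  intro a ha
  unfold omegaOneCenter omegaOne at ha
  induction ha using closure_induction with
  | mem x hx => exact hx.2
  | one => exact one_pow _
  | mul x y hx hy h1 h2 =>
    have hc : Commute x y := oz_comm (p := p) H x hx y hy
    rw [hc.mul_pow, h1, h2, one_mul]
  | inv x _ h => rw [inv_pow, h, inv_one]

theorem norm_oz (H : Subgroup G) : normalizer (H : Set G) ≤ normalizer (omegaOneCenter p H : Set G) := by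
  rw [le_normalizer_iff_conj]
  intro g hg k hk
  have : cj g (omegaOneCenter p H) ≤ omegaOneCenter p H := by
    unfold omegaOneCenter
    rw [← omegaOne_cj', cj_inf, cj_centralizer, cj_eq_of_mem_normalizer hg]
  exact cj_le_iff_forall.mp this k hk

theorem norm_cent (E : Subgroup G) : normalizer (E : Set G) ≤ normalizer (centralizer (E : Set G) : Set G) := by
  rw [le_normalizer_iff_conj]
  intro g hg k hk e he
  have h1 : g⁻¹ * e * g ∈ E := by
    have := (mem_normalizer_iff.mp (inv_mem hg) e).mp he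
    simpa using this
  have h2 : (g⁻¹ * e * g) * k = k * (g⁻¹ * e * g) := hk _ h1
  calc e * (g * k * g⁻¹) = g * ((g⁻¹ * e * g) * k) * g⁻¹ := by group
    _ = g * (k * (g⁻¹ * e * g)) * g⁻¹ := by rw [h2]
    _ = g * k * g⁻¹ * e := by group

theorem norm_inf {H K N : Subgroup G} (h1 : N ≤ normalizer (H : Set G)) (h2 : N ≤ normalizer (K : Set G)) :
    N ≤ normalizer ((H ⊓ K : Subgroup G) : Set G) := by
  rw [le_normalizer_iff_conj] at *
  exact fun n hn k hk => ⟨h1 n hn k hk.1, h2 n hn k hk.2⟩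

theorem pCoreOf_le' (E : Subgroup G) : pCoreOf p E ≤ E := map_subtype_le _

theorem norm_WW (E : Subgroup G) : normalizer (E : Set G) ≤ normalizer (WW p E : Set G) :=
  (le_normalizer_oP (p := p) E).trans (norm_oz _)

theorem norm_ZZ (E : Subgroup G) : normalizer (E : Set G) ≤ normalizer (ZZ p E : Set G) :=
  norm_inf (norm_WW E) (norm_cent E)

theorem WE_le (E : Subgroup G) : WE p E ≤ WW p E := commutator_le_left_of ((le_normalizer).trans (norm_WW E))

theorem WW_le_E (E : Subgroup G) : WW p E ≤ E := (oz_le _).trans (pCoreOf_le' E)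

theorem norm_WE (E : Subgroup G) : normalizer (E : Set G) ≤ normalizer (WE p E : Set G) := by
  rw [le_normalizer_iff_conj]
  intro g hg k hk
  have : cj g (WE p E) ≤ WE p E := by
    rw [cj_commutator, cj_eq_of_mem_normalizer (norm_WW E hg), cj_eq_of_mem_normalizer hg]
  exact cj_le_iff_forall.mp this k hk
end

section block
variable [Finite G] {p : ℕ} [Fact p.Prime] {T E : Subgroup G}

/-- the data of a block used here -/
structure Blk (p : ℕ) (T E : Subgroup G) : Prop where
  gen : pGen p E = E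
  comm : ⁅E, BT p T⁆ = E
  pc : ⁅pCoreOf p E, E⁆ = pCoreOf p E
  nat : NatSec E (WW p E) (ZZ p E)

theorem Blk.of (h : IsBaumannBlock p T E) : Blk p T E := by
  obtain ⟨h1, h2, h3, h4, h5⟩ := h
  rw [pResidualOf_eq] at h1
  refine ⟨h1, h2, h3, ?_⟩
  rcases h5 with ⟨F, iF, iFf, n, -, -, h6, -⟩ | ⟨hp2, m, ⟨e⟩, h6, -⟩
  · exact natSec_of_SL2 h6
  · refine natSec_of_perm ?_ h6
    rintro rfl
    apply h4
    -- `E` is a `p`-group
    have hsub : Subsingleton ↥(alternatingGroup (Fin (2 * 0 + 1))) := by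
      refine ⟨fun a b => Subtype.ext (Equiv.ext fun i => ?_)⟩
      exact Subsingleton.elim (α := Fin 1) _ _
    have hs2 : Subsingleton (↥E ⧸ pCore p ↥E) := e.toEquiv.subsingleton
    have ht : pCore p ↥E = ⊤ := QuotientGroup.subgroup_eq_top_of_subsingleton _ hs2
    have hEp : IsPGroup p ↥E := by
      have := oP_isPGroup (p := p) E
      have h7 : oP p E = E := by
        change (pCore p ↥E).map E.subtype = E
        rw [ht, ← MonoidHom.range_eq_map, range_subtype]
      rwa [h7] at this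
    have hEb : E = ⊥ := by
      rw [← h1, pGen, closure_eq_bot_iff]
      rintro x ⟨hx, ho⟩
      have := mem_of_pow (p := p) (K := (⊥ : Subgroup G)) (h := x) (m := Classical.choose (pow_mem_of_pgroup (K := (⊥ : Subgroup G)) hEp x hx))
        (Classical.choose_spec (pow_mem_of_pgroup (K := (⊥ : Subgroup G)) hEp x hx)) ho
      exact this
    rw [hEb]
    exact commutator_bot_left _

variable {TS : Sylow p G}

theorem Blk.norm (h : Blk p (TS : Subgroup G) E) {Q : Subgroup G} (hQ : IsPGroup p ↥Q)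
    (hBQ : BT p (TS : Subgroup G) ≤ normalizer (Q : Set G)) (hEQ : E ≤ normalizer (Q : Set G)) :
    Q ≤ normalizer (E : Set G) :=
  norm_of (p := p) (P := BT p (TS : Subgroup G)) (TS.isPGroup'.to_le (BT_le _)) h.gen h.comm (sup_le hEQ hBQ)
    (norm_BT TS hQ hBQ)

theorem WW_pgroup : IsPGroup p ↥(WW p E) := (oP_isPGroup (p := p) E).to_le (oz_le _)

/-- `[W, Q] ≤ C_W(E)` for a `p`-group `Q` normalized by `E` and normalizing `E` -/
theorem Blk.comm_WW (h : Blk p T E) {Q : Subgroup G} (hQ : IsPGroup p ↥Q)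
    (hEQ : E ≤ normalizer (Q : Set G)) (hQE : Q ≤ normalizer (E : Set G)) : ⁅WW p E, Q⁆ ≤ ZZ p E := by
  have hEE : E ≤ normalizer (E : Set G) := le_normalizer
  refine comm_le_of_natSec (p := p) h.nat inf_le_left WW_pgroup hQ (hQE.trans (norm_WW E)) (hQE.trans (norm_ZZ E))
    (hEE.trans (norm_WW E)) (hEE.trans (norm_ZZ E)) ((WW_le_E E).trans (hEE.trans (norm_ZZ E))) ?_ (oz_comm _)
  intro e he r hr
  refine ⟨r⁻¹ * (e * r * e⁻¹), ?_, by group⟩
  have h1 : e * r * e⁻¹ ∈ Q := (mem_normalizer_iff.mp (hEQ he) r).mp hr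
  have h2 : r⁻¹ * (e * r * e⁻¹) ∈ Q := mul_mem (inv_mem hr) h1
  have h3 : r⁻¹ * (e * r * e⁻¹) ∈ E := by
    have := (mem_normalizer_iff.mp (inv_mem (hQE hr)) e).mp he
    have e1 : r⁻¹ * (e * r * e⁻¹) = (r⁻¹ * e * r⁻¹⁻¹) * e⁻¹ := by group
    rw [e1]; exact mul_mem this (inv_mem he)
  have h4 : r⁻¹ * (e * r * e⁻¹) ∈ pCoreOf p E := by
    have : Q ⊓ E ≤ oP p E := le_oP (p := p) (hQ.to_le inf_le_left) inf_le_right (norm_inf hEQ hEE)
    exact this ⟨h2, h3⟩
  intro w hw
  exact (oz_le_cent _ hw _ h4).symm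

theorem Blk.comm_QE (h : Blk p T E) {Q : Subgroup G} (hQ : IsPGroup p ↥Q)
    (hEQ : E ≤ normalizer (Q : Set G)) (hQE : Q ≤ normalizer (E : Set G)) : ⁅E, Q⁆ ≤ pCoreOf p E := by
  have hEE : E ≤ normalizer (E : Set G) := le_normalizer
  have : Q ⊓ E ≤ oP p E := le_oP (p := p) (hQ.to_le inf_le_left) inf_le_right (norm_inf hEQ hEE)
  refine le_trans (le_inf ?_ ?_) this
  · rw [commutator_comm]; exact commutator_le_left_of hEQ
  · exact commutator_le_left_of hQE

/-- `[W_E, Q] = 1` -/
theorem Blk.comm_WE (h : Blk p T E) {Q : Subgroup G} (hQ : IsPGroup p ↥Q)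
    (hEQ : E ≤ normalizer (Q : Set G)) (hQE : Q ≤ normalizer (E : Set G)) : ⁅WE p E, Q⁆ = ⊥ := by
  apply commutator_commutator_eq_bot_of_rotate
  · rw [commutator_eq_bot_iff_le_centralizer]
    refine (h.comm_QE hQ hEQ hQE).trans ?_
    rw [le_centralizer_iff]; exact oz_le_cent _
  · rw [commutator_comm Q, commutator_eq_bot_iff_le_centralizer]
    exact (h.comm_WW hQ hEQ hQE).trans inf_le_right

theorem Blk.norm_pCore (h : Blk p (TS : Subgroup G) E) : pCore p G ≤ normalizer (E : Set G) := by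
  have hR : IsPGroup p ↥(pCore p G) := Cfsg.Agent.H11.Cores.pCore_isPGroup p
  refine h.norm hR ?_ ?_ <;> rw [normalizer_eq_top] <;> exact le_top

theorem Blk.WE_le_core (h : Blk p (TS : Subgroup G) E) (hG : centralizer (pCore p G : Set G) ≤ pCore p G) :
    WE p E ≤ omegaOneCenter p (pCore p G) := by
  have hR : IsPGroup p ↥(pCore p G) := Cfsg.Agent.H11.Cores.pCore_isPGroup p
  have h1 : ⁅WE p E, pCore p G⁆ = ⊥ :=
    h.comm_WE hR (by rw [normalizer_eq_top]; exact le_top) h.norm_pCore
  have h2 : WE p E ≤ centralizer (pCore p G : Set G) := commutator_eq_bot_iff_le_centralizer.mp h1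
  intro x hx
  exact mem_oz (hG (h2 hx)) (fun y hy => h2 hx y hy) (oz_pow _ x (WE_le E hx))

theorem Blk.WE_J (h : Blk p (TS : Subgroup G) E) (hG : centralizer (pCore p G : Set G) ≤ pCore p G) :
    ⁅WE p E, thompsonSubgroupOf p (TS : Subgroup G)⁆ ≠ ⊥ := by
  intro hb
  rw [← JJ_p, commutator_eq_bot_iff_le_centralizer] at hb
  have hR : pCore p G ≤ (TS : Subgroup G) := by
    have h1 : IsPGroup p ↥(pCore p G) := Cfsg.Agent.H11.Cores.pCore_isPGroup p
    exact Cfsg.Agent.H13.Bad.pCore_le_sylow TS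
  have hWT : WE p E ≤ (TS : Subgroup G) := (h.WE_le_core hG).trans ((oz_le _).trans hR)
  have hWA : ∀ A, MaxEA p (TS : Subgroup G) A → WE p E ≤ A := by
    intro A hA
    have hc : ∀ x ∈ WE p E, ∀ a ∈ A, a * x = x * a := fun x hx a ha => hb hx a (hA.le_JJ ha)
    have h2 : EA p (A ⊔ WE p E : Subgroup G) := by
      have hn : WE p E ≤ normalizer (A : Set G) := by
        rw [le_normalizer_iff_conj]
        intro x hx a ha
        rw [← hc x hx a ha, mul_inv_cancel_right]; exact ha
      have hWc : ∀ x ∈ WE p E, ∀ y ∈ WE p E, x * y = y * x := fun x hx y hy =>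
        oz_comm _ x (WE_le E hx) y (WE_le E hy)
      constructor
      · intro u hu v hv
        obtain ⟨a, ha, x, hx, rfl⟩ := mem_sup_of_norm hn hu
        obtain ⟨b, hb', y, hy, rfl⟩ := mem_sup_of_norm hn hv
        have e1 := hc x hx b hb'
        have e2 := hc y hy a ha
        have e3 := hA.2.1.1 a ha b hb'
        have e4 := hWc x hx y hy
        calc a * x * (b * y) = a * (x * b) * y := by group
          _ = a * (b * x) * y := by rw [e1]
          _ = (a * b) * (x * y) := by group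
          _ = (b * a) * (y * x) := by rw [e3, e4]
          _ = b * (a * y) * x := by group
          _ = b * (y * a) * x := by rw [e2]
          _ = b * y * (a * x) := by group
      · intro u hu
        obtain ⟨a, ha, x, hx, rfl⟩ := mem_sup_of_norm hn hu
        have hcc : Commute a x := hc x hx a ha
        rw [hcc.mul_pow, hA.2.1.2 a ha, oz_pow _ x (WE_le E hx), one_mul]
    have h3 := hA.2.2 _ (sup_le hA.1 hWT) h2
    have h4 : A = A ⊔ WE p E := by
      apply H2.Card.eq_of_le_of_card_eq le_sup_left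
      exact le_antisymm (Subgroup.card_le_of_le le_sup_left) h3
    rw [h4]; exact le_sup_right
  obtain ⟨A, hA⟩ := exists_MaxEA p (TS : Subgroup G)
  have h5 : WE p E ≤ omegaOne p (ZJJ p (TS : Subgroup G)) := by
    intro x hx
    exact subset_closure ⟨⟨hA.le_JJ (hWA A hA hx), fun y hy => hb hx y hy⟩, oz_pow _ x (WE_le E hx)⟩
  have h6 : BT p (TS : Subgroup G) ≤ centralizer (WE p E : Set G) := by
    rw [BT_eq]
    exact inf_le_right.trans (centralizer_le h5)
  have h7 : E ≤ centralizer (WE p E : Set G) := by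
    conv_lhs => rw [← h.comm]
    rw [commutator_le]
    intro e he b hb'
    have hn : e ∈ normalizer (centralizer (WE p E : Set G) : Set G) :=
      norm_cent _ (norm_WE E (le_normalizer he))
    rw [commutatorElement_def]
    exact mul_mem ((mem_normalizer_iff.mp hn b).mp (h6 hb')) (inv_mem (h6 hb'))
  apply h.nat.2
  refine le_inf (WE_le E) ?_
  rwa [le_centralizer_iff]

end block

end Cfsg.Agent.H18.BB
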