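import Mathlib
import Cfsg.Prelude.Def_LieExceptional

/-!
# Groups in which commuting is transitive (even order)
-/

set_option autoImplicit false

namespace Cfsg.Agent.H18.CA

open Subgroup MulAction

/-- commuting is transitive on non-identity elements -/
def CA (G : Type*) [Group G] : Prop :=
  ∀ a b c : G, a ≠ 1 → b ≠ 1 → c ≠ 1 → Commute a b → Commute b c → Commute a c

section basics

variable {G : Type*} [Group G]

theorem CA.comm (h : CA G) {x a b : G} (hx : x ≠ 1) (ha : Commute a x) (hb : Commute b x) : Commute a b := by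
  by_cases ha1 : a = 1
  · subst ha1; exact Commute.one_left b
  by_cases hb1 : b = 1
  · subst hb1; exact Commute.one_right a
  exact h a x b ha1 hx hb1 ha hb.symm

/-- the centralizer -/
def A (t : G) : Subgroup G := Subgroup.centralizer {t}

theorem mem_A {t x : G} : x ∈ A t ↔ Commute x t := by
  rw [A, Subgroup.mem_centralizer_singleton_iff]
  rfl

theorem self_mem (t : G) : t ∈ A t := mem_A.mpr (Commute.refl t)

theorem A_comm (h : CA G) {t : G} (ht : t ≠ 1) {x y : G} (hx : x ∈ A t) (hy : y ∈ A t) : Commute x y :=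
  h.comm ht (mem_A.mp hx) (mem_A.mp hy)

theorem mem_A_iff (h : CA G) {t : G} (ht : t ≠ 1) {x : G} (hx : x ∈ A t) (hx1 : x ≠ 1) (y : G) :
    y ∈ A t ↔ Commute y x := by
  constructor
  · intro hy
    exact A_comm h ht hy hx
  · intro hy
    exact mem_A.mpr (h.comm hx1 hy (mem_A.mp hx).symm)

/-- the normalizer of the centralizer -/
def N (t : G) : Subgroup G := Subgroup.normalizer (A t : Set G)

theorem mem_N {t g : G} : g ∈ N t ↔ ∀ x, x ∈ A t ↔ g * x * g⁻¹ ∈ A t := by
  rw [N, Subgroup.mem_normalizer_iff]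

theorem A_le_N (t : G) : A t ≤ N t := Subgroup.le_normalizer

theorem N_conj {t g x : G} (hg : g ∈ N t) (hx : x ∈ A t) : g * x * g⁻¹ ∈ A t := (mem_N.mp hg x).mp hx

theorem commute_conj {g x y : G} : Commute (g * x * g⁻¹) (g * y * g⁻¹) ↔ Commute x y := by
  constructor
  · intro hc
    have h1 : (g * x * g⁻¹) * (g * y * g⁻¹) = (g * y * g⁻¹) * (g * x * g⁻¹) := hc
    have h2 : g * (x * y) * g⁻¹ = g * (y * x) * g⁻¹ := by
      calc g * (x * y) * g⁻¹ = (g * x * g⁻¹) * (g * y * g⁻¹) := by group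
        _ = (g * y * g⁻¹) * (g * x * g⁻¹) := h1
        _ = g * (y * x) * g⁻¹ := by group
    exact mul_left_cancel (mul_right_cancel h2)
  · intro hc
    have h1 : x * y = y * x := hc
    change (g * x * g⁻¹) * (g * y * g⁻¹) = (g * y * g⁻¹) * (g * x * g⁻¹)
    calc (g * x * g⁻¹) * (g * y * g⁻¹) = g * (x * y) * g⁻¹ := by group
      _ = g * (y * x) * g⁻¹ := by rw [h1]
      _ = (g * y * g⁻¹) * (g * x * g⁻¹) := by group

theorem conj_ne_one {g x : G} (hx : x ≠ 1) : g * x * g⁻¹ ≠ 1 := by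
  intro h1
  exact hx (conj_eq_one_iff.mp h1)

theorem mem_N_of (h : CA G) {t : G} (ht : t ≠ 1) {g x : G} (hx : x ∈ A t) (hx1 : x ≠ 1)
    (hgx : g * x * g⁻¹ ∈ A t) : g ∈ N t := by
  rw [mem_N]
  intro y
  rw [mem_A_iff h ht hx hx1, mem_A_iff h ht hgx (conj_ne_one hx1), commute_conj]

/-- involutions of the normalizer -/
theorem inv_mem_A (h : CA G) {t : G} (ht : t ≠ 1) (ht2 : t * t = 1) {s : G} (hs2 : s * s = 1)
    (hs : s ∈ N t) : s ∈ A t := by
  have hsi : s⁻¹ = s := inv_eq_of_mul_eq_one_left hs2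
  have h1 : s * t * s⁻¹ ∈ A t := N_conj hs (self_mem t)
  -- t * (s t s) is fixed by s
  have hc : Commute t (s * t * s⁻¹) := (A_comm h ht (self_mem t) h1)
  have h2 : Commute (t * (s * t * s⁻¹)) s := by
    change t * (s * t * s⁻¹) * s = s * (t * (s * t * s⁻¹))
    have e1 : t * (s * t * s⁻¹) = s * t * s⁻¹ * t := hc
    calc t * (s * t * s⁻¹) * s = s * t * s⁻¹ * t * s := by rw [e1]
      _ = s * t * s * t * s := by rw [hsi]
      _ = s * (t * (s * t * s)) := by group
      _ = s * (t * (s * t * s⁻¹)) := by rw [hsi]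
  by_cases hb : t * (s * t * s⁻¹) = 1
  · have h3 : s * t * s⁻¹ = t := by
      calc s * t * s⁻¹ = (t * t) * (s * t * s⁻¹) := by rw [ht2, one_mul]
        _ = t * (t * (s * t * s⁻¹)) := by group
        _ = t := by rw [hb, mul_one]
    rw [mem_A]
    change s * t = t * s
    calc s * t = (s * t * s⁻¹) * s := by group
      _ = t * s := by rw [h3]
  · have h4 : t * (s * t * s⁻¹) ∈ A t := mul_mem (self_mem t) h1
    exact (mem_A_iff h ht h4 hb s).mpr h2.symm

/-- two involutions are conjugate or commute with a common involution -/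
theorem dihedral [Finite G] {s t : G} (hs : s * s = 1) (ht : t * t = 1) :
    (∃ w : G, w * t * w⁻¹ = s) ∨ ∃ z : G, z ≠ 1 ∧ Commute s z ∧ Commute z t := by
  have hsi : s⁻¹ = s := inv_eq_of_mul_eq_one_left hs
  have hti : t⁻¹ = t := inv_eq_of_mul_eq_one_left ht
  have hst : s * (s * t) * s⁻¹ = (s * t)⁻¹ := by
    rw [mul_inv_rev, hsi, hti, ← mul_assoc, hs, one_mul]
  have htt : t * (s * t) * t⁻¹ = (s * t)⁻¹ := by
    rw [mul_inv_rev, hsi, hti]
    calc t * (s * t) * t = t * s * (t * t) := by group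
      _ = t * s := by rw [ht, mul_one]
  have hsp : ∀ n : ℕ, s * (s * t) ^ n * s⁻¹ = ((s * t) ^ n)⁻¹ := by
    intro n
    rw [← conj_pow, hst, inv_pow]
  have htp : ∀ n : ℕ, t * (s * t) ^ n * t⁻¹ = ((s * t) ^ n)⁻¹ := by
    intro n
    rw [← conj_pow, htt, inv_pow]
  rcases Nat.even_or_odd (orderOf (s * t)) with ⟨j, hj⟩ | ⟨j, hj⟩
  · right
    have hpos : 0 < orderOf (s * t) := orderOf_pos _
    have hz1 : (s * t) ^ j ≠ 1 := by
      intro e
      have := Nat.le_of_dvd (by omega) (orderOf_dvd_of_pow_eq_one e)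
      omega
    have hz2 : ((s * t) ^ j)⁻¹ = (s * t) ^ j := by
      apply inv_eq_of_mul_eq_one_left
      rw [← pow_add, ← hj, pow_orderOf_eq_one]
    refine ⟨(s * t) ^ j, hz1, ?_, ?_⟩
    · have e := hsp j
      rw [hz2] at e
      change s * (s * t) ^ j = (s * t) ^ j * s
      calc s * (s * t) ^ j = (s * (s * t) ^ j * s⁻¹) * s := by group
        _ = (s * t) ^ j * s := by rw [e]
    · have e := htp j
      rw [hz2] at e
      apply Commute.symm
      change t * (s * t) ^ j = (s * t) ^ j * t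
      calc t * (s * t) ^ j = (t * (s * t) ^ j * t⁻¹) * t := by group
        _ = (s * t) ^ j * t := by rw [e]
  · left
    refine ⟨(s * t) ^ (j + 1), ?_⟩
    have e := htp (j + 1)
    have e2 : t * ((s * t) ^ (j + 1))⁻¹ = (s * t) ^ (j + 1) * t := by
      have e3 : (t * (s * t) ^ (j + 1) * t⁻¹)⁻¹ = (s * t) ^ (j + 1) := by rw [e, inv_inv]
      have e4 : (t * (s * t) ^ (j + 1) * t⁻¹)⁻¹ = t * ((s * t) ^ (j + 1))⁻¹ * t⁻¹ := by group
      rw [e4] at e3
      calc t * ((s * t) ^ (j + 1))⁻¹ = t * ((s * t) ^ (j + 1))⁻¹ * t⁻¹ * t := by group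
        _ = (s * t) ^ (j + 1) * t := by rw [e3]
    calc (s * t) ^ (j + 1) * t * ((s * t) ^ (j + 1))⁻¹ = (s * t) ^ (j + 1) * (t * ((s * t) ^ (j + 1))⁻¹) := by group
      _ = (s * t) ^ (j + 1) * ((s * t) ^ (j + 1) * t) := by rw [e2]
      _ = (s * t) ^ ((2 * j + 1) + 1) * t := by
          rw [← mul_assoc, ← pow_add]
          congr 2
          ring
      _ = s := by
          rw [pow_succ, ← hj, pow_orderOf_eq_one, one_mul, mul_assoc, ht, mul_one]

end basics

section simple

variable {G : Type*} [Group G] [Finite G] [IsSimpleGroup G]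

theorem center_eq_bot (hG : ¬ IsMulCommutative G) : Subgroup.center G = ⊥ := by
  rcases (inferInstance : (Subgroup.center G).Normal).eq_bot_or_eq_top with h1 | h1
  · exact h1
  · exfalso
    apply hG
    refine ⟨⟨fun a b => ?_⟩⟩
    have ha : b ∈ Subgroup.center G := h1 ▸ Subgroup.mem_top b
    exact (Subgroup.mem_center_iff.mp ha) a

/-- all involutions are conjugate -/
theorem invol_conj (hG : ¬ IsMulCommutative G) (h : CA G) {s t : G} (hs : s * s = 1) (hs1 : s ≠ 1) (ht : t * t = 1)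
    (ht1 : t ≠ 1) : ∃ g : G, g * t * g⁻¹ = s := by
  by_contra hne
  push Not at hne
  -- s commutes with all conjugates of t
  have key : ∀ g : G, Commute s (g * t * g⁻¹) := by
    intro g
    have h2 : (g * t * g⁻¹) * (g * t * g⁻¹) = 1 := by
      calc (g * t * g⁻¹) * (g * t * g⁻¹) = g * (t * t) * g⁻¹ := by group
        _ = 1 := by rw [ht]; group
    rcases dihedral hs h2 with ⟨w, hw⟩ | ⟨z, hz1, hsz, hzt⟩
    · exfalso
      apply hne (w * g)
      rw [← hw]
      group
    · exact h s z _ hs1 hz1 (conj_ne_one ht1) hsz hzt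
  have h3 : Subgroup.normalClosure {t} ≤ Subgroup.centralizer {s} := by
    rw [Subgroup.normalClosure, Subgroup.closure_le]
    intro x hx
    rw [Group.mem_conjugatesOfSet_iff] at hx
    obtain ⟨a, ha, hax⟩ := hx
    rw [Set.mem_singleton_iff] at ha
    subst ha
    rw [isConj_iff] at hax
    obtain ⟨c, hc⟩ := hax
    rw [SetLike.mem_coe, Subgroup.mem_centralizer_singleton_iff, ← hc]
    exact (key c).symm
  have h4 : Subgroup.normalClosure {t} = ⊤ := by
    rcases (inferInstance : (Subgroup.normalClosure ({t} : Set G)).Normal).eq_bot_or_eq_top with h5 | h5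
    · exfalso
      apply ht1
      have : t ∈ Subgroup.normalClosure ({t} : Set G) := Subgroup.subset_normalClosure (Set.mem_singleton t)
      rw [h5, Subgroup.mem_bot] at this
      exact this
    · exact h5
  have h5 : s ∈ Subgroup.center G := by
    rw [Subgroup.mem_center_iff]
    intro g
    have : g ∈ Subgroup.centralizer {s} := h3 (h4 ▸ Subgroup.mem_top g)
    rwa [Subgroup.mem_centralizer_singleton_iff] at this
  rw [center_eq_bot hG, Subgroup.mem_bot] at h5
  exact hs1 h5

theorem N_ne_top (hG : ¬ IsMulCommutative G) (h : CA G) {t : G} (ht1 : t ≠ 1) : N t ≠ ⊤ := by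
  intro hN
  have h1 : (A t).Normal := by
    refine ⟨fun x hx g => N_conj ?_ hx⟩
    rw [hN]
    exact Subgroup.mem_top g
  rcases h1.eq_bot_or_eq_top with h2 | h2
  · have := self_mem t
    rw [h2, Subgroup.mem_bot] at this
    exact ht1 this
  · apply hG
    refine ⟨⟨fun a b => ?_⟩⟩
    exact A_comm h ht1 (h2 ▸ Subgroup.mem_top a) (h2 ▸ Subgroup.mem_top b)

end simple

end Cfsg.Agent.H18.CA
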