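import Mathlib
import Cfsg.Agent.H18_CA

/-!
# Simple groups in which commuting is transitive: counting involutions
-/

set_option autoImplicit false

namespace Cfsg.Agent.H18.CA2

open Subgroup MulAction Cfsg.Agent.H18.CA

section simple

variable {G : Type*} [Group G] [Finite G] [IsSimpleGroup G]

theorem exists_N_notA (hG : ¬ IsMulCommutative G) (h : CA G) {t : G} (ht : t * t = 1) (ht1 : t ≠ 1) :
    ∃ n ∈ N t, n ∉ A t := by
  by_contra hcon
  push Not at hcon
  haveI : Fact (Nat.Prime 2) := ⟨Nat.prime_two⟩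
  have hot : orderOf t = 2 := orderOf_eq_prime (by rw [pow_two]; exact ht) ht1
  have hp : IsPGroup 2 (Subgroup.zpowers t) := IsPGroup.of_card (n := 1) (by rw [Nat.card_zpowers, hot, pow_one])
  obtain ⟨S, hS⟩ := hp.exists_le_sylow
  have htS : t ∈ S := hS (Subgroup.mem_zpowers t)
  obtain ⟨z, hzS, hz1, hzc⟩ : ∃ z ∈ S, z ≠ 1 ∧ ∀ s ∈ S, Commute s z := by
    haveI : Nontrivial S := ⟨⟨⟨t, htS⟩, 1, fun e => ht1 (congrArg Subtype.val e)⟩⟩
    haveI := (S.isPGroup').center_nontrivial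
    obtain ⟨z, hz⟩ := exists_ne (1 : Subgroup.center S)
    refine ⟨z.1.1, z.1.2, fun e => hz (Subtype.ext (Subtype.ext e)), fun s hs => ?_⟩
    have := Subgroup.mem_center_iff.mp z.2 ⟨s, hs⟩
    exact congrArg Subtype.val this
  have hzA : z ∈ A t := mem_A.mpr (hzc t htS).symm
  have hSA : ∀ s ∈ S, s ∈ A t := fun s hs => (mem_A_iff h ht1 hzA hz1 s).mpr (hzc s hs)
  have hN : Subgroup.normalizer ((S : Subgroup G) : Set G) ≤ Subgroup.centralizer ((S : Subgroup G) : Set G) := by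
    intro g hg
    have h1 : g * t * g⁻¹ ∈ S := (Subgroup.mem_normalizer_iff.mp hg t).mp htS
    have h2 : g ∈ A t := hcon g (mem_N_of h ht1 (self_mem t) ht1 (hSA _ h1))
    rw [Subgroup.mem_centralizer_iff]
    intro s hs
    exact A_comm h ht1 (hSA s hs) h2
  have hc := MonoidHom.ker_transferSylow_isComplement' S hN
  rcases (inferInstance : (MonoidHom.transferSylow S hN).ker.Normal).eq_bot_or_eq_top with h1 | h1
  · rw [h1] at hc
    have h2 : (S : Subgroup G) = ⊤ := Subgroup.isComplement'_bot_left.mp hc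
    apply hG
    refine ⟨⟨fun a b => ?_⟩⟩
    have ha : a ∈ (S : Subgroup G) := h2 ▸ Subgroup.mem_top a
    have hb : b ∈ (S : Subgroup G) := h2 ▸ Subgroup.mem_top b
    exact A_comm h ht1 (hSA a ha) (hSA b hb)
  · rw [h1] at hc
    have h2 : (S : Subgroup G) = ⊥ := Subgroup.isComplement'_top_left.mp hc
    have h3 : t ∈ (S : Subgroup G) := htS
    rw [h2, Subgroup.mem_bot] at h3
    exact ht1 h3

end simple

theorem card_fib {G X : Type*} [Group G] [Finite G] (H : Subgroup G) (f : G → X) (hs : Function.Surjective f)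
    (hf : ∀ g g', f g = f g' ↔ g⁻¹ * g' ∈ H) : Nat.card X * Nat.card H = Nat.card G := by
  have e : Nat.card X = Nat.card (G ⧸ H) := by
    refine (Nat.card_congr (Equiv.ofBijective (Quotient.lift f ?_) ⟨?_, ?_⟩)).symm
    · intro a b hab
      exact (hf a b).mpr (QuotientGroup.leftRel_apply.mp hab)
    · intro a b
      refine Quotient.inductionOn₂ a b ?_
      intro a b hab
      exact Quotient.sound (QuotientGroup.leftRel_apply.mpr ((hf a b).mp hab))
    · intro x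
      obtain ⟨g, hg⟩ := hs x
      exact ⟨Quotient.mk _ g, hg⟩
  rw [e]
  exact (Subgroup.card_eq_card_quotient_mul_card_subgroup H).symm

/-- the configuration -/
structure Hyp (G Ω : Type*) [Group G] [MulAction G Ω] (t : G) (p : Ω) : Prop where
  ca : CA G
  t2 : t * t = 1
  t1 : t ≠ 1
  st : ∀ g : G, g • p = p ↔ g ∈ N t
  tr : ∀ x : Ω, ∃ g : G, g • p = x
  cj : ∀ s : G, s * s = 1 → s ≠ 1 → ∃ g : G, g * t * g⁻¹ = s

variable {G Ω : Type*} [Group G] [MulAction G Ω] {t : G} {p : Ω}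

/-- the number of involutions of `A` -/
noncomputable def kk (t : G) : ℕ := Nat.card {s : G // s * s = 1 ∧ s ≠ 1 ∧ s ∈ A t}

/-- involutions moving `p` to `x` -/
def I (G : Type*) {Ω : Type*} [Group G] [MulAction G Ω] (p x : Ω) : Type _ :=
  {s : G // s * s = 1 ∧ s ≠ 1 ∧ s • p = x}

instance instFiniteI [Finite G] (x : Ω) : Finite (I G p x) :=
  inferInstanceAs (Finite {s : G // s * s = 1 ∧ s ≠ 1 ∧ s • p = x})

theorem inv_self {s : G} (hs : s * s = 1) : s⁻¹ = s := inv_eq_of_mul_eq_one_left hs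

theorem sq_conj {g s : G} (hs : s * s = 1) : (g * s * g⁻¹) * (g * s * g⁻¹) = 1 := by
  calc (g * s * g⁻¹) * (g * s * g⁻¹) = g * (s * s) * g⁻¹ := by group
    _ = 1 := by rw [hs]; group

theorem kN [Finite G] (h : Hyp G Ω t p) : kk t * Nat.card (A t) = Nat.card (N t) := by
  let f : N t → {s : G // s * s = 1 ∧ s ≠ 1 ∧ s ∈ A t} := fun n =>
    ⟨n * t * (n : G)⁻¹, sq_conj h.t2, conj_ne_one h.t1, N_conj n.2 (self_mem t)⟩
  have h1 := card_fib ((A t).subgroupOf (N t)) f ?_ ?_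
  · have h2 : Nat.card ((A t).subgroupOf (N t)) = Nat.card (A t) :=
      Nat.card_congr (Subgroup.subgroupOfEquivOfLe (A_le_N t)).toEquiv
    rw [h2] at h1
    exact h1
  · rintro ⟨s, hs2, hs1, hsA⟩
    obtain ⟨g, hg⟩ := h.cj s hs2 hs1
    refine ⟨⟨g, mem_N_of h.ca h.t1 (self_mem t) h.t1 (hg ▸ hsA)⟩, ?_⟩
    exact Subtype.ext hg
  · intro g g'
    rw [Subgroup.mem_subgroupOf]
    constructor
    · intro e
      have e1 : (g : G) * t * (g : G)⁻¹ = g' * t * (g' : G)⁻¹ := congrArg Subtype.val e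
      rw [mem_A]
      change ((g : G)⁻¹ * g') * t = t * ((g : G)⁻¹ * g')
      calc ((g : G)⁻¹ * g') * t = (g : G)⁻¹ * (g' * t * (g' : G)⁻¹) * g' := by group
        _ = (g : G)⁻¹ * ((g : G) * t * (g : G)⁻¹) * g' := by rw [e1]
        _ = t * ((g : G)⁻¹ * g') := by group
    · intro e
      apply Subtype.ext
      change (g : G) * t * (g : G)⁻¹ = g' * t * (g' : G)⁻¹
      have e1 : ((g : G)⁻¹ * g') * t = t * ((g : G)⁻¹ * g') := mem_A.mp e
      calc (g : G) * t * (g : G)⁻¹ = (g : G) * (t * ((g : G)⁻¹ * g')) * (g' : G)⁻¹ := by group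
        _ = (g : G) * (((g : G)⁻¹ * g') * t) * (g' : G)⁻¹ := by rw [e1]
        _ = g' * t * (g' : G)⁻¹ := by group

theorem mG [Finite G] (h : Hyp G Ω t p) : Nat.card {s : G // s * s = 1 ∧ s ≠ 1} * Nat.card (A t) = Nat.card G := by
  let f : G → {s : G // s * s = 1 ∧ s ≠ 1} := fun n =>
    ⟨n * t * (n : G)⁻¹, sq_conj h.t2, conj_ne_one h.t1⟩
  refine card_fib (A t) f ?_ ?_
  · rintro ⟨s, hs2, hs1⟩
    obtain ⟨g, hg⟩ := h.cj s hs2 hs1
    exact ⟨g, Subtype.ext hg⟩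
  · intro g g'
    constructor
    · intro e
      have e1 : (g : G) * t * (g : G)⁻¹ = g' * t * (g' : G)⁻¹ := congrArg Subtype.val e
      rw [mem_A]
      change ((g : G)⁻¹ * g') * t = t * ((g : G)⁻¹ * g')
      calc ((g : G)⁻¹ * g') * t = (g : G)⁻¹ * (g' * t * (g' : G)⁻¹) * g' := by group
        _ = (g : G)⁻¹ * ((g : G) * t * (g : G)⁻¹) * g' := by rw [e1]
        _ = t * ((g : G)⁻¹ * g') := by group
    · intro e
      apply Subtype.ext
      change (g : G) * t * (g : G)⁻¹ = g' * t * (g' : G)⁻¹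
      have e1 : ((g : G)⁻¹ * g') * t = t * ((g : G)⁻¹ * g') := mem_A.mp e
      calc (g : G) * t * (g : G)⁻¹ = (g : G) * (t * ((g : G)⁻¹ * g')) * (g' : G)⁻¹ := by group
        _ = (g : G) * (((g : G)⁻¹ * g') * t) * (g' : G)⁻¹ := by rw [e1]
        _ = g' * t * (g' : G)⁻¹ := by group

theorem ON [Finite G] (h : Hyp G Ω t p) : Nat.card Ω * Nat.card (N t) = Nat.card G := by
  refine card_fib (N t) (fun g => g • p) h.tr ?_
  intro g g'
  rw [← h.st, mul_smul, inv_smul_eq_iff]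
  exact eq_comm

theorem m_eq [Finite G] (h : Hyp G Ω t p) : Nat.card {s : G // s * s = 1 ∧ s ≠ 1} = Nat.card Ω * kk t := by
  have h1 := mG h
  have h2 := ON h
  have h3 := kN h
  have h4 : 0 < Nat.card (A t) := Nat.card_pos
  apply Nat.eq_of_mul_eq_mul_right h4
  rw [h1, ← h2, ← h3]
  ring

theorem kk_pos [Finite G] (h : Hyp G Ω t p) : 0 < kk t := by
  have h3 := kN h
  have h4 : 0 < Nat.card (N t) := Nat.card_pos
  rcases Nat.eq_zero_or_pos (kk t) with h5 | h5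
  · rw [h5, zero_mul] at h3
    omega
  · exact h5

theorem D_inf_A (h : Hyp G Ω t p) {s : G} (hs : s * s = 1) (hsN : s ∉ N t) {x : G} (hx : x ∈ A t)
    (hsx : s * x * s⁻¹ ∈ N t) : x = 1 := by
  by_contra hx1
  set y := s * x * s⁻¹ with hy
  have hsi := inv_self hs
  have hyx : s * y * s⁻¹ = x := by
    rw [hy]
    calc s * (s * x * s⁻¹) * s⁻¹ = (s * s) * x * (s * s)⁻¹ := by group
      _ = x := by rw [hs]; group
  set c := x * (y * x⁻¹ * y⁻¹) with hc
  have hcA : c ∈ A t := mul_mem hx (N_conj hsx (inv_mem hx))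
  have hcs : s * c * s⁻¹ = (y * x * y⁻¹) * x⁻¹ := by
    calc s * c * s⁻¹ = (s * x * s⁻¹) * ((s * y * s⁻¹) * (s * x * s⁻¹)⁻¹ * (s * y * s⁻¹)⁻¹) := by
          rw [hc]; group
      _ = y * (x * y⁻¹ * x⁻¹) := by rw [hyx, ← hy]
      _ = (y * x * y⁻¹) * x⁻¹ := by group
  have hcsA : s * c * s⁻¹ ∈ A t := by
    rw [hcs]
    exact mul_mem (N_conj hsx hx) (inv_mem hx)
  have hc1 : c = 1 := by
    by_contra hc1
    exact hsN (mem_N_of h.ca h.t1 hcA hc1 hcsA)
  have hcomm : Commute y x := by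
    change y * x = x * y
    have e : x * y * x⁻¹ * y⁻¹ = 1 := by
      rw [← hc1, hc]; group
    calc y * x = (x * y * x⁻¹ * y⁻¹)⁻¹ * (x * y) := by group
      _ = x * y := by rw [e]; group
  have hyA : y ∈ A t := (mem_A_iff h.ca h.t1 hx hx1 y).mpr hcomm
  exact hsN (mem_N_of h.ca h.t1 hx hx1 hyA)

theorem card_le_kk [Finite G] (h : Hyp G Ω t p) (D : Subgroup G) (hD : D ≤ N t) (hDA : ∀ d ∈ D, d ∈ A t → d = 1) :
    Nat.card D ≤ kk t := by
  let f : D → {s : G // s * s = 1 ∧ s ≠ 1 ∧ s ∈ A t} := fun n =>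
    ⟨n * t * (n : G)⁻¹, sq_conj h.t2, conj_ne_one h.t1, N_conj (hD n.2) (self_mem t)⟩
  apply Nat.card_le_card_of_injective f
  intro g g' e
  have e1 : (g : G) * t * (g : G)⁻¹ = g' * t * (g' : G)⁻¹ := congrArg Subtype.val e
  have e2 : (g : G)⁻¹ * g' ∈ A t := by
    rw [mem_A]
    change ((g : G)⁻¹ * g') * t = t * ((g : G)⁻¹ * g')
    calc ((g : G)⁻¹ * g') * t = (g : G)⁻¹ * (g' * t * (g' : G)⁻¹) * g' := by group
      _ = (g : G)⁻¹ * ((g : G) * t * (g : G)⁻¹) * g' := by rw [e1]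
      _ = t * ((g : G)⁻¹ * g') := by group
  have e3 := hDA _ (mul_mem (inv_mem g.2) g'.2) e2
  exact Subtype.ext (inv_mul_eq_one.mp e3)

theorem ne_of_I {x : Ω} (h : Hyp G Ω t p) (hx : x ≠ p) {s : G} (hs : s • p = x) : s ∉ N t := by
  intro h1
  rw [← h.st, hs] at h1
  exact hx h1

/-- two point stabilisers -/
theorem D_A (h : Hyp G Ω t p) {x : Ω} (hx : x ≠ p) {s : G} (hs : s * s = 1) (hsx : s • p = x)
    {d : G} (hdA : d ∈ A t) (hd : d • x = x) : d = 1 := by
  refine D_inf_A h hs (ne_of_I h hx hsx) hdA ?_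
  rw [← h.st, mul_smul, mul_smul]
  have e1 : s⁻¹ • p = x := by rw [inv_self hs]; exact hsx
  rw [e1, hd, ← hsx, ← mul_smul, hs, one_smul]

/-- the map `r ↦ s r` -/
def mapI {x : Ω} (s : I G p x) (r : I G p x) : (stabilizer G p ⊓ stabilizer G x : Subgroup G) :=
  ⟨s.1 * r.1, by
    obtain ⟨s, hs2, hs1, hsx⟩ := s
    obtain ⟨r, hr2, hr1, hrx⟩ := r
    refine ⟨?_, ?_⟩
    · change (s * r) • p = p
      rw [mul_smul, hrx, ← hsx, ← mul_smul, hs2, one_smul]
    · change (s * r) • x = x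
      rw [mul_smul]
      conv_lhs => rw [← hrx]
      rw [← mul_smul r, hr2, one_smul, hsx]⟩

theorem mapI_inj {x : Ω} (s : I G p x) : Function.Injective (mapI s) := by
  intro r r' e
  have e1 : s.1 * r.1 = s.1 * r'.1 := congrArg Subtype.val e
  exact Subtype.ext (mul_left_cancel e1)

theorem card_D_le [Finite G] (h : Hyp G Ω t p) {x : Ω} (hx : x ≠ p) {s : G} (hs : s * s = 1) (hsx : s • p = x) :
    Nat.card (stabilizer G p ⊓ stabilizer G x : Subgroup G) ≤ kk t := by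
  apply card_le_kk h
  · intro d hd
    exact (h.st d).mp hd.1
  · intro d hd hdA
    exact D_A h hx hs hsx hdA hd.2

theorem I_le [Finite G] (h : Hyp G Ω t p) (x : Ω) : Nat.card (I G p x) ≤ kk t := by
  by_cases hx : x = p
  · subst hx
    have : Nat.card (I G x x) = kk t := by
      apply Nat.card_congr
      refine Equiv.subtypeEquivRight ?_
      intro s
      constructor
      · rintro ⟨h1, h2, h3⟩
        exact ⟨h1, h2, inv_mem_A h.ca h.t1 h.t2 h1 ((h.st s).mp h3)⟩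
      · rintro ⟨h1, h2, h3⟩
        exact ⟨h1, h2, (h.st s).mpr (A_le_N t h3)⟩
    exact this.le
  · rcases isEmpty_or_nonempty (I G p x) with he | ⟨⟨s, hs2, hs1, hsx⟩⟩
    · rw [Nat.card_of_isEmpty]
      exact Nat.zero_le _
    · haveI : Finite (I G p x) := inferInstanceAs (Finite {s : G // _})
      exact (Nat.card_le_card_of_injective _ (mapI_inj ⟨s, hs2, hs1, hsx⟩)).trans (card_D_le h hx hs2 hsx)

theorem I_eq [Finite G] [Finite Ω] (h : Hyp G Ω t p) (x : Ω) : Nat.card (I G p x) = kk t := by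
  classical
  haveI := Fintype.ofFinite Ω
  haveI := Fintype.ofFinite G
  have h1 : Nat.card {s : G // s * s = 1 ∧ s ≠ 1} = ∑ y : Ω, Nat.card (I G p y) := by
    rw [← Nat.card_sigma]
    apply Nat.card_congr
    refine (Equiv.sigmaFiberEquiv (fun s : {s : G // s * s = 1 ∧ s ≠ 1} => s.1 • p)).symm.trans ?_
    refine Equiv.sigmaCongrRight (fun y => ?_)
    exact ⟨fun s => ⟨s.1.1, s.1.2.1, s.1.2.2, s.2⟩, fun s => ⟨⟨s.1, s.2.1, s.2.2.1⟩, s.2.2.2⟩,
      fun s => rfl, fun s => rfl⟩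
  have h2 : ∑ y : Ω, Nat.card (I G p y) = ∑ y : Ω, kk t := by
    rw [← h1, m_eq h, Finset.sum_const, Finset.card_univ, smul_eq_mul, Nat.card_eq_fintype_card]
  exact (Finset.sum_eq_sum_iff_of_le (fun y _ => I_le h y)).mp h2 x (Finset.mem_univ x)

theorem exists_I [Finite G] [Finite Ω] (h : Hyp G Ω t p) (x : Ω) : ∃ s : G, s * s = 1 ∧ s ≠ 1 ∧ s • p = x := by
  have h1 := I_eq h x
  have h2 := kk_pos h
  have : Nonempty (I G p x) := by
    by_contra hn
    rw [not_nonempty_iff] at hn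
    rw [Nat.card_of_isEmpty] at h1
    omega
  obtain ⟨s⟩ := this
  exact ⟨s.1, s.2⟩

/-- elements of `A` act freely on the other points -/
theorem A_free [Finite G] [Finite Ω] (h : Hyp G Ω t p) {x : Ω} (hx : x ≠ p) {d : G} (hdA : d ∈ A t)
    (hd : d • x = x) : d = 1 := by
  obtain ⟨s, hs2, hs1, hsx⟩ := exists_I h x
  exact D_A h hx hs2 hsx hdA hd

theorem card_D [Finite G] [Finite Ω] (h : Hyp G Ω t p) {x : Ω} (hx : x ≠ p) :
    Nat.card (stabilizer G p ⊓ stabilizer G x : Subgroup G) = kk t := by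
  obtain ⟨s, hs2, hs1, hsx⟩ := exists_I h x
  apply le_antisymm (card_D_le h hx hs2 hsx)
  rw [← I_eq h x]
  exact Nat.card_le_card_of_injective _ (mapI_inj ⟨s, hs2, hs1, hsx⟩)

theorem inverts [Finite G] [Finite Ω] (h : Hyp G Ω t p) {x : Ω} (hx : x ≠ p) {s : G} (hs : s * s = 1) (hs1 : s ≠ 1)
    (hsx : s • p = x) {d : G} (hd : d • p = p) (hdx : d • x = x) : s * d * s⁻¹ = d⁻¹ := by
  have hb : Function.Bijective (mapI (p := p) (x := x) ⟨s, hs, hs1, hsx⟩) := by
    apply (mapI_inj _).bijective_of_nat_card_le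
    rw [card_D h hx, I_eq h x]
  obtain ⟨⟨r, hr2, hr1, hrx⟩, hr⟩ := hb.2 ⟨d, hd, hdx⟩
  have e : s * r = d := congrArg Subtype.val hr
  rw [← e, mul_inv_rev, inv_self hs, inv_self hr2]
  calc s * (s * r) * s = (s * s) * r * s := by group
    _ = r * s := by rw [hs, one_mul]

end Cfsg.Agent.H18.CA2
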