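import Mathlib
import Cfsg.Prelude.Def_BaumannBlocks
import Cfsg.Agent.H18_CD

set_option autoImplicit false

/-!
Centralizer-large and centrally large subgroups of a finite group.
-/

namespace Cfsg.Agent.H18.CL

open scoped Pointwise
open Cfsg Cfsg.Agent.H18.CD

variable {G : Type*} [Group G]

theorem card_center_eq (R : Subgroup G) :
    Nat.card ↥(Subgroup.center ↥R) = Nat.card ↥(R ⊓ Subgroup.centralizer (R : Set G)) := by
  have h : (Subgroup.center ↥R).map R.subtype = R ⊓ Subgroup.centralizer (R : Set G) := by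
    ext x
    constructor
    · rintro ⟨y, hy, rfl⟩
      refine ⟨y.2, ?_⟩
      show (y : G) ∈ Subgroup.centralizer (R : Set G)
      rw [Subgroup.mem_centralizer_iff]
      intro h hh
      exact congrArg Subtype.val (Subgroup.mem_center_iff.mp hy ⟨h, hh⟩)
    · rintro ⟨hx1, hx2⟩
      refine ⟨⟨x, hx1⟩, ?_, rfl⟩
      rw [SetLike.mem_coe, Subgroup.mem_center_iff]
      intro g
      exact Subtype.ext (Subgroup.mem_centralizer_iff.mp hx2 g g.2)
  rw [← h]
  exact Nat.card_congr ((Subgroup.center ↥R).equivMapOfInjective R.subtype R.subtype_injective).toEquiv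

/-- `|R| * |Z(R)|` -/
noncomputable def cm (R : Subgroup G) : ℕ := Nat.card ↥R * Nat.card ↥(Subgroup.center ↥R)

theorem cm_eq (R : Subgroup G) : cm R = Nat.card ↥R * Nat.card ↥(R ⊓ Subgroup.centralizer (R : Set G)) := by
  rw [cm, card_center_eq]

variable [Finite G]

theorem cm_le_meas (R : Subgroup G) : cm R ≤ meas R := by
  rw [cm_eq]
  exact Nat.mul_le_mul_left _ (Subgroup.card_le_of_le inf_le_right)

theorem isCentralizerLarge_iff (R : Subgroup G) : IsCentralizerLarge R ↔ ∀ K : Subgroup G, meas K ≤ meas R := by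
  have hbdd : BddAbove {k : ℕ | ∃ R : Subgroup G, Nat.card ↥R * Nat.card ↥(Subgroup.centralizer (R : Set G)) = k} :=
    (Set.finite_range (fun R : Subgroup G => Nat.card ↥R * Nat.card ↥(Subgroup.centralizer (R : Set G)))).bddAbove
  have hne : {k : ℕ | ∃ R : Subgroup G, Nat.card ↥R * Nat.card ↥(Subgroup.centralizer (R : Set G)) = k}.Nonempty :=
    ⟨_, ⊤, rfl⟩
  constructor
  · intro h K
    change meas R = maxCentralizerProduct G at h
    rw [h]
    exact le_csSup hbdd ⟨K, rfl⟩
  · intro h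
    change meas R = maxCentralizerProduct G
    apply le_antisymm (le_csSup hbdd ⟨R, rfl⟩)
    apply csSup_le hne
    rintro _ ⟨K, rfl⟩
    exact h K

theorem isCentrallyLarge_iff' (R : Subgroup G) : IsCentrallyLarge R ↔ ∀ K : Subgroup G, cm K ≤ cm R := by
  have hbdd : BddAbove {k : ℕ | ∃ R : Subgroup G, Nat.card ↥R * Nat.card ↥(Subgroup.center ↥R) = k} :=
    (Set.finite_range (fun R : Subgroup G => Nat.card ↥R * Nat.card ↥(Subgroup.center ↥R))).bddAbove
  have hne : {k : ℕ | ∃ R : Subgroup G, Nat.card ↥R * Nat.card ↥(Subgroup.center ↥R) = k}.Nonempty :=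
    ⟨_, ⊤, rfl⟩
  constructor
  · intro h K
    change cm R = maxCentralProduct G at h
    rw [h]
    exact le_csSup hbdd ⟨K, rfl⟩
  · intro h
    change cm R = maxCentralProduct G
    apply le_antisymm (le_csSup hbdd ⟨R, rfl⟩)
    apply csSup_le hne
    rintro _ ⟨K, rfl⟩
    exact h K

/-- package of Chermak–Delgado facts for two measure-largest subgroups. -/
theorem large_pair {H K : Subgroup G} (hH : IsCentralizerLarge H) (hK : IsCentralizerLarge K) :
    IsCentralizerLarge (H ⊔ K) ∧ IsCentralizerLarge (H ⊓ K) ∧ ((H ⊔ K : Subgroup G) : Set G) = (H : Set G) * (K : Set G) ∧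
      ((Subgroup.centralizer (H : Set G) ⊔ Subgroup.centralizer (K : Set G) : Subgroup G) : Set G) =
        (Subgroup.centralizer (H : Set G) : Set G) * (Subgroup.centralizer (K : Set G) : Set G) ∧
      Subgroup.centralizer ((H ⊓ K : Subgroup G) : Set G) =
        Subgroup.centralizer (H : Set G) ⊔ Subgroup.centralizer (K : Set G) := by
  rw [isCentralizerLarge_iff] at hH hK
  have hHK : meas K = meas H := le_antisymm (hH K) (hK H)
  obtain ⟨h1, h2, h3, h4, h5⟩ := meas_max hH rfl hHK
  refine ⟨?_, ?_, h3, h4, h5⟩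
  · rw [isCentralizerLarge_iff, h1]; exact hH
  · rw [isCentralizerLarge_iff, h2]; exact hH

theorem large_centralizer {H : Subgroup G} (hH : IsCentralizerLarge H) :
    IsCentralizerLarge (Subgroup.centralizer (H : Set G)) := by
  rw [isCentralizerLarge_iff] at hH ⊢
  intro K
  exact (hH K).trans (meas_le_meas_centralizer H)

theorem large_cc {H : Subgroup G} (hH : IsCentralizerLarge H) :
    Subgroup.centralizer ((Subgroup.centralizer (H : Set G) : Subgroup G) : Set G) = H := by
  rw [isCentralizerLarge_iff] at hH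
  have h1 := hH (Subgroup.centralizer (H : Set G))
  unfold meas at h1
  rw [mul_comm] at h1
  have h2 : Nat.card ↥(Subgroup.centralizer ((Subgroup.centralizer (H : Set G) : Subgroup G) : Set G)) ≤ Nat.card ↥H :=
    Nat.le_of_mul_le_mul_right h1 Nat.card_pos
  exact (Subgroup.eq_of_le_of_card_ge (Subgroup.le_centralizer_iff.mp le_rfl) h2).symm

theorem exists_large : ∃ H : Subgroup G, IsCentralizerLarge H := by
  obtain ⟨H, hH⟩ := Finite.exists_max (fun H : Subgroup G => meas H)
  exact ⟨H, (isCentralizerLarge_iff H).mpr hH⟩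

theorem cm_eq_meas_of_le {R : Subgroup G} (h : Subgroup.centralizer (R : Set G) ≤ R) : cm R = meas R := by
  rw [cm_eq, inf_eq_right.mpr h]; rfl

theorem exists_large_self : ∃ H : Subgroup G, IsCentralizerLarge H ∧ Subgroup.centralizer (H : Set G) ≤ H := by
  obtain ⟨H, hH⟩ := exists_large (G := G)
  refine ⟨H ⊔ Subgroup.centralizer (H : Set G), (large_pair hH (large_centralizer hH)).1, ?_⟩
  rw [centralizer_sup]
  exact inf_le_left.trans le_sup_right

/-- centrally large = measure-largest and self-centralizing -/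
theorem isCentrallyLarge_iff (R : Subgroup G) :
    IsCentrallyLarge R ↔ IsCentralizerLarge R ∧ Subgroup.centralizer (R : Set G) ≤ R := by
  obtain ⟨H, hH, hHc⟩ := exists_large_self (G := G)
  have hHm := cm_eq_meas_of_le hHc
  rw [isCentralizerLarge_iff] at hH
  constructor
  · intro h
    rw [isCentrallyLarge_iff'] at h
    have h1 := h H
    rw [hHm] at h1
    have h2 : meas H = meas R := le_antisymm (h1.trans (cm_le_meas R)) (hH R)
    have h3 : cm R = meas R := le_antisymm (cm_le_meas R) ((hH R).trans h1)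
    refine ⟨?_, ?_⟩
    · rw [isCentralizerLarge_iff, ← h2]; exact hH
    · rw [cm_eq] at h3
      have h4 : Nat.card ↥(R ⊓ Subgroup.centralizer (R : Set G)) = Nat.card ↥(Subgroup.centralizer (R : Set G)) :=
        Nat.eq_of_mul_eq_mul_left Nat.card_pos h3
      have h5 : R ⊓ Subgroup.centralizer (R : Set G) = Subgroup.centralizer (R : Set G) :=
        Subgroup.eq_of_le_of_card_ge inf_le_right h4.ge
      rw [← h5]; exact inf_le_left
  · rintro ⟨h1, h2⟩
    rw [isCentralizerLarge_iff] at h1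
    rw [isCentrallyLarge_iff', cm_eq_meas_of_le h2]
    intro K
    exact (cm_le_meas K).trans (h1 K)

theorem cl_sup {Q R : Subgroup G} (hQ : IsCentrallyLarge Q) (hR : IsCentralizerLarge R) :
    IsCentrallyLarge (Q ⊔ R) := by
  rw [isCentrallyLarge_iff] at hQ ⊢
  refine ⟨(large_pair hQ.1 hR).1, ?_⟩
  rw [centralizer_sup]
  exact inf_le_left.trans (hQ.2.trans le_sup_left)

theorem cl_of_le {Q R : Subgroup G} (hQ : IsCentrallyLarge Q) (hQR : Q ≤ R) (hR : IsCentralizerLarge R) :
    IsCentrallyLarge R := by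
  have := cl_sup hQ hR
  rwa [sup_eq_right.mpr hQR] at this

theorem exists_cl : ∃ Q : Subgroup G, IsCentrallyLarge Q := by
  obtain ⟨H, hH, hHc⟩ := exists_large_self (G := G)
  exact ⟨H, (isCentrallyLarge_iff H).mpr ⟨hH, hHc⟩⟩

/-- joins of nonempty families of centrally large subgroups are centrally large. -/
theorem cl_sSup (s : Set (Subgroup G)) (hne : s.Nonempty) (hs : ∀ Q ∈ s, IsCentrallyLarge Q) :
    IsCentrallyLarge (sSup s) := by
  classical
  have hfin : s.Finite := Set.toFinite s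
  induction s, hfin using Set.Finite.induction_on with
  | empty => exact absurd hne (by simp)
  | @insert a t hat ht ih =>
    rw [sSup_insert]
    rcases t.eq_empty_or_nonempty with h | h
    · subst h
      simpa using hs a (by simp)
    · exact cl_sup (hs a (by simp)) ((isCentrallyLarge_iff _).mp (ih h (fun Q hQ => hs Q (by simp [hQ])))).1

theorem exists_min_cl_le {Q : Subgroup G} (hQ : IsCentrallyLarge Q) :
    ∃ R : Subgroup G, R ≤ Q ∧ IsMinimalCentrallyLarge R := by
  classical
  haveI : Nonempty {R : Subgroup G // R ≤ Q ∧ IsCentrallyLarge R} := ⟨⟨Q, le_rfl, hQ⟩⟩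
  obtain ⟨⟨R, hRQ, hR⟩, hmin⟩ := Finite.exists_min
    (fun R : {R : Subgroup G // R ≤ Q ∧ IsCentrallyLarge R} => Nat.card ↥R.1)
  refine ⟨R, hRQ, hR, fun R' hR' hcl => ?_⟩
  exact Subgroup.eq_of_le_of_card_ge hR' (hmin ⟨R', hR'.trans hRQ, hcl⟩)

theorem cl_join : IsCentrallyLarge (centrallyLargeJoin G) := by
  obtain ⟨Q, hQ⟩ := exists_cl (G := G)
  exact cl_sSup _ ⟨Q, hQ⟩ (fun _ h => h)

theorem mcl_join : IsCentrallyLarge (minimalCentrallyLargeJoin G) := by
  obtain ⟨Q, hQ⟩ := exists_cl (G := G)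
  obtain ⟨R, -, hR⟩ := exists_min_cl_le hQ
  exact cl_sSup _ ⟨R, hR⟩ (fun _ h => h.1)

/-! ### large abelian subgroups -/

theorem exists_maxAb : ∃ A : Subgroup G, A ∈ maxAbelianSubgroups G := by
  haveI : Nonempty {A : Subgroup G // IsMulCommutative A} := ⟨⟨⊥, inferInstance⟩⟩
  obtain ⟨⟨A, hA⟩, hmax⟩ := Finite.exists_max (fun A : {A : Subgroup G // IsMulCommutative A} => Nat.card ↥A.1)
  exact ⟨A, hA, fun B hB => hmax ⟨B, hB⟩⟩

theorem le_centralizer_of_comm {A : Subgroup G} (hA : IsMulCommutative A) : A ≤ Subgroup.centralizer (A : Set G) := by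
  intro x hx
  rw [Subgroup.mem_centralizer_iff]
  intro h hh
  have := hA.is_comm.comm (⟨h, hh⟩ : A) ⟨x, hx⟩
  exact congrArg Subtype.val this

theorem comm_of_le_centralizer {A : Subgroup G} (hA : A ≤ Subgroup.centralizer (A : Set G)) : IsMulCommutative A := by
  refine ⟨⟨fun a b => ?_⟩⟩
  apply Subtype.ext
  exact Subgroup.mem_centralizer_iff.mp (hA b.2) a a.2

/-- a large abelian subgroup is self-centralizing -/
theorem maxAb_centralizer {A : Subgroup G} (hA : A ∈ maxAbelianSubgroups G) :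
    Subgroup.centralizer (A : Set G) = A := by
  apply le_antisymm _ (le_centralizer_of_comm hA.1)
  intro x hx
  have hcomm : IsMulCommutative ↥(A ⊔ Subgroup.zpowers x) := by
    apply comm_of_le_centralizer
    rw [centralizer_sup]
    refine le_inf (sup_le (le_centralizer_of_comm hA.1) ?_) (sup_le ?_ ?_)
    · rwa [Subgroup.zpowers_le]
    · rw [Subgroup.le_centralizer_iff, Subgroup.zpowers_le]; exact hx
    · exact le_centralizer_of_comm inferInstance
  have h1 := hA.2 _ hcomm
  have h2 : A = A ⊔ Subgroup.zpowers x := Subgroup.eq_of_le_of_card_ge le_sup_left h1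
  rw [h2]
  exact Subgroup.mem_sup_right (Subgroup.mem_zpowers x)

theorem comm_sup {A B : Subgroup G} (hA : IsMulCommutative A) (hB : IsMulCommutative B)
    (hAB : A ≤ Subgroup.centralizer (B : Set G)) : IsMulCommutative ↥(A ⊔ B) := by
  apply comm_of_le_centralizer
  rw [centralizer_sup]
  exact le_inf (sup_le (le_centralizer_of_comm hA) (Subgroup.le_centralizer_iff.mp hAB))
    (sup_le hAB (le_centralizer_of_comm hB))

/-- S3006 core. -/
theorem cl_sup_maxAb {Q A : Subgroup G} (hQ : IsCentrallyLarge Q) (hA : A ∈ maxAbelianSubgroups G) :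
    ((Q ⊔ A : Subgroup G) : Set G) = (Q : Set G) * (A : Set G) ∧ IsCentrallyLarge (Q ⊔ A) ∧
      (Q ⊓ A) ⊔ Subgroup.centralizer (Q : Set G) ∈ maxAbelianSubgroups G := by
  obtain ⟨hQl, hQc⟩ := (isCentrallyLarge_iff Q).mp hQ
  have hQm := (isCentralizerLarge_iff Q).mp hQl
  have hAc := maxAb_centralizer hA
  set Z := Subgroup.centralizer (Q : Set G) with hZ
  have hZcomm : IsMulCommutative Z := comm_of_le_centralizer (hQc.trans (Subgroup.le_centralizer_iff.mp le_rfl))
  have hQAcomm : IsMulCommutative ↥(Q ⊓ A) := comm_of_le_centralizer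
    (inf_le_right.trans ((le_centralizer_of_comm hA.1).trans (Subgroup.centralizer_le (fun _ hx => hx.2))))
  -- the abelian group B = (Q ⊓ A) Z
  have hBcomm : IsMulCommutative ↥((Q ⊓ A) ⊔ Z) :=
    comm_sup hQAcomm hZcomm (inf_le_left.trans (Subgroup.le_centralizer_iff.mp le_rfl))
  have hBle := hA.2 _ hBcomm
  have hBcard := card_mul_card_le (Q ⊓ A) Z
  have hinf : (Q ⊓ A) ⊓ Z = A ⊓ Z := by
    apply le_antisymm
    · exact inf_le_inf_right _ inf_le_right
    · exact le_inf (le_inf (inf_le_right.trans hQc) inf_le_left) inf_le_right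
  rw [hinf] at hBcard
  -- |Q ⊓ A| |Z| ≤ |A| |A ⊓ Z|
  have h1 : Nat.card ↥(Q ⊓ A) * Nat.card ↥Z ≤ Nat.card ↥A * Nat.card ↥(A ⊓ Z) :=
    hBcard.trans (Nat.mul_le_mul_right _ hBle)
  have h2 := card_mul_card_le Q A
  have hC : Subgroup.centralizer ((Q ⊔ A : Subgroup G) : Set G) = A ⊓ Z := by
    rw [centralizer_sup, hAc, ← hZ, inf_comm]
  have hm : meas (Q ⊔ A) = Nat.card ↥(Q ⊔ A) * Nat.card ↥(A ⊓ Z) := by unfold meas; rw [hC]
  have hle := hQm (Q ⊔ A)
  rw [hm] at hle
  unfold meas at hle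
  rw [← hZ] at hle
  set q := Nat.card ↥Q
  set z := Nat.card ↥Z
  set a := Nat.card ↥A
  set s := Nat.card ↥(Q ⊔ A)
  set i := Nat.card ↥(Q ⊓ A)
  set j := Nat.card ↥(A ⊓ Z)
  have hqpos : 0 < q := Nat.card_pos
  have hzpos : 0 < z := Nat.card_pos
  have hapos : 0 < a := Nat.card_pos
  have hspos : 0 < s := Nat.card_pos
  have hipos : 0 < i := Nat.card_pos
  have hjpos : 0 < j := Nat.card_pos
  -- h1 : i z ≤ a j ; h2 : q a ≤ s i ; hle : s j ≤ q z
  have e1 : q * a * j ≤ s * i * j := Nat.mul_le_mul_right _ h2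
  have e2 : s * i * j ≤ q * z * i := by nlinarith
  have e3 : q * z * i ≤ q * a * j := by nlinarith
  have e4 : s * i = q * a := by
    have : s * i * j = q * a * j := le_antisymm (e2.trans e3) e1
    exact Nat.eq_of_mul_eq_mul_right hjpos this
  have e5 : i * z = a * j := by
    have : q * (i * z) = q * (a * j) := by nlinarith
    exact Nat.eq_of_mul_eq_mul_left hqpos this
  have e6 : s * j = q * z := by
    have : s * j * i = q * z * i := by nlinarith
    exact Nat.eq_of_mul_eq_mul_right hipos this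
  refine ⟨sup_eq_mul_of_card Q A e4.le, ?_, hBcomm, ?_⟩
  · rw [isCentrallyLarge_iff, isCentralizerLarge_iff, hC]
    refine ⟨?_, inf_le_left.trans le_sup_right⟩
    rw [hm, e6]
    exact hQm
  · intro B hB
    refine (hA.2 B hB).trans ?_
    have h3 : a * j ≤ Nat.card ↥((Q ⊓ A) ⊔ Z) * j := e5 ▸ hBcard
    exact Nat.le_of_mul_le_mul_right h3 hjpos

/-- any subgroup containing all large abelian subgroups and measure-largest contains `C(Z(J))`. -/
theorem jTilde_le {S : Subgroup G} (hS : IsCentralizerLarge S) (hJ : thompsonSubgroupA G ≤ S) :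
    Subgroup.centralizer ((thompsonSubgroupA G ⊓ Subgroup.centralizer (thompsonSubgroupA G : Set G) : Subgroup G) : Set G) ≤ S := by
  set J := thompsonSubgroupA G with hJdef
  obtain ⟨A₀, hA₀⟩ := exists_maxAb (G := G)
  have hCJ : Subgroup.centralizer (J : Set G) ≤ J := by
    have h1 : A₀ ≤ J := le_sSup hA₀
    exact (Subgroup.centralizer_le h1).trans ((maxAb_centralizer hA₀).le.trans h1)
  rw [inf_eq_right.mpr hCJ]
  set Z := Subgroup.centralizer (J : Set G) with hZ
  set X := Subgroup.centralizer (Z : Set G) with hX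
  have hJX : J ≤ X := Subgroup.le_centralizer_iff.mp le_rfl
  have hCX : Subgroup.centralizer (X : Set G) = Z := by
    apply le_antisymm (Subgroup.centralizer_le hJX)
    rw [Subgroup.le_centralizer_iff]
  have hCSX : Subgroup.centralizer ((S ⊓ X : Subgroup G) : Set G) = Z := by
    apply le_antisymm
    · exact Subgroup.centralizer_le (le_inf hJ hJX)
    · rw [← hCX]; exact Subgroup.centralizer_le inf_le_right
  have hSm := (isCentralizerLarge_iff S).mp hS
  have h1 := meas_mul_le S X
  have h2 : meas S * meas X ≤ meas S * meas (S ⊓ X) := h1.trans (Nat.mul_le_mul_right _ (hSm _))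
  have h3 : meas X ≤ meas (S ⊓ X) := Nat.le_of_mul_le_mul_left h2 (meas_pos S)
  unfold meas at h3
  rw [hCX, hCSX] at h3
  have h4 : Nat.card ↥X ≤ Nat.card ↥(S ⊓ X) := Nat.le_of_mul_le_mul_right h3 Nat.card_pos
  have h5 : S ⊓ X = X := Subgroup.eq_of_le_of_card_ge inf_le_right h4
  rw [← h5]; exact inf_le_left

theorem cl_sup_J {Q : Subgroup G} (hQ : IsCentrallyLarge Q) : IsCentrallyLarge (Q ⊔ thompsonSubgroupA G) := by
  classical
  unfold thompsonSubgroupA
  have key : ∀ s : Set (Subgroup G), (∀ A ∈ s, A ∈ maxAbelianSubgroups G) → IsCentrallyLarge (Q ⊔ sSup s) := by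
    intro s
    have hfin : s.Finite := Set.toFinite s
    induction s, hfin using Set.Finite.induction_on with
    | empty => intro _; simpa using hQ
    | @insert a t hat ht ih =>
      intro hs
      have h1 := ih (fun A hA => hs A (by simp [hA]))
      have h2 := (cl_sup_maxAb h1 (hs a (by simp))).2.1
      rw [sSup_insert]
      have : Q ⊔ sSup t ⊔ a = Q ⊔ (a ⊔ sSup t) := by ac_rfl
      rwa [this] at h2
  exact key _ (fun A hA => hA)

/-- Dedekind. -/
theorem dedekind {A B C : Subgroup G} (hAC : A ≤ C) (hAB : ((A ⊔ B : Subgroup G) : Set G) = (A : Set G) * (B : Set G)) :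
    (A ⊔ B) ⊓ C = A ⊔ (B ⊓ C) := by
  apply le_antisymm
  · rintro x ⟨hx1, hx2⟩
    have hx1 : x ∈ ((A ⊔ B : Subgroup G) : Set G) := hx1
    rw [hAB] at hx1
    obtain ⟨a, ha, b, hb, rfl⟩ := hx1
    refine Subgroup.mul_mem_sup ha ⟨hb, ?_⟩
    have : b = a⁻¹ * (a * b) := by group
    rw [this]
    exact C.mul_mem (C.inv_mem (hAC ha)) hx2
  · exact le_inf (sup_le_sup_left inf_le_left _) (sup_le hAC inf_le_right)

theorem card_eq_of_card_sup {H K : Subgroup G} (h : ((H ⊔ K : Subgroup G) : Set G) = (H : Set G) * (K : Set G)) :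
    Nat.card ↥(H ⊔ K) * Nat.card ↥(H ⊓ K) = Nat.card ↥H * Nat.card ↥K :=
  card_sup_mul_card_inf_of_eq_mul H K h

/-- S3007 core -/
theorem mcl_pair {Q R : Subgroup G} (hQ : IsMinimalCentrallyLarge Q) (hR : IsMinimalCentrallyLarge R) :
    (Q ⊓ R) ⊔ Subgroup.centralizer (Q : Set G) = Q ∧
      ((((Q ⊓ R) ⊔ Subgroup.centralizer (Q : Set G) : Subgroup G) : Set G) =
        ((Q ⊓ R : Subgroup G) : Set G) * (Subgroup.centralizer (Q : Set G) : Set G)) ∧
      (Q ⊓ R) ⊓ Subgroup.centralizer (Q : Set G) = (Q ⊓ R) ⊓ Subgroup.centralizer ((Q ⊓ R : Subgroup G) : Set G) := by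
  obtain ⟨hQl, hQc⟩ := (isCentrallyLarge_iff Q).mp hQ.1
  obtain ⟨hRl, hRc⟩ := (isCentrallyLarge_iff R).mp hR.1
  obtain ⟨-, h2, -, h4, h5⟩ := large_pair hQl hRl
  have hZQ := large_centralizer hQl
  obtain ⟨g1, -, g3, -⟩ := large_pair h2 hZQ
  have hcl : IsCentrallyLarge ((Q ⊓ R) ⊔ Subgroup.centralizer (Q : Set G)) := by
    rw [isCentrallyLarge_iff]
    refine ⟨g1, ?_⟩
    rw [centralizer_sup, large_cc hQl, h5, dedekind hQc h4, sup_comm]
    exact sup_le_sup_right (le_inf inf_le_right (inf_le_left.trans hRc)) _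
  have heq := hQ.2 _ (sup_le inf_le_left hQc) hcl
  refine ⟨heq, g3, ?_⟩
  apply le_antisymm
  · exact le_inf inf_le_left (inf_le_right.trans (Subgroup.centralizer_le inf_le_left))
  · refine le_inf inf_le_left ?_
    have : (Q ⊓ R) ⊓ Subgroup.centralizer ((Q ⊓ R : Subgroup G) : Set G) ≤
        Subgroup.centralizer (((Q ⊓ R) ⊔ Subgroup.centralizer (Q : Set G) : Subgroup G) : Set G) := by
      rw [centralizer_sup, large_cc hQl]
      exact le_inf inf_le_right (inf_le_left.trans inf_le_left)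
    rwa [heq] at this

theorem mcl_card {Q R : Subgroup G} (hQ : IsMinimalCentrallyLarge Q) (hR : IsMinimalCentrallyLarge R) :
    Nat.card ↥Q = Nat.card ↥R ∧
      Nat.card ↥(Subgroup.centralizer (Q : Set G)) = Nat.card ↥(Subgroup.centralizer (R : Set G)) := by
  obtain ⟨a1, a2, a3⟩ := mcl_pair hQ hR
  obtain ⟨b1, b2, b3⟩ := mcl_pair hR hQ
  have c1 := card_eq_of_card_sup a2
  have c2 := card_eq_of_card_sup b2
  rw [a1, a3] at c1
  rw [b1, b3, inf_comm R Q] at c2
  obtain ⟨hQl, hQc⟩ := (isCentrallyLarge_iff Q).mp hQ.1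
  obtain ⟨hRl, hRc⟩ := (isCentrallyLarge_iff R).mp hR.1
  have hm : meas Q = meas R :=
    le_antisymm ((isCentralizerLarge_iff R).mp hRl Q) ((isCentralizerLarge_iff Q).mp hQl R)
  unfold meas at hm
  set q := Nat.card ↥Q
  set r := Nat.card ↥R
  set zq := Nat.card ↥(Subgroup.centralizer (Q : Set G))
  set zr := Nat.card ↥(Subgroup.centralizer (R : Set G))
  set k := Nat.card ↥(Q ⊓ R)
  set l := Nat.card ↥((Q ⊓ R) ⊓ Subgroup.centralizer ((Q ⊓ R : Subgroup G) : Set G))
  have hkpos : 0 < k := Nat.card_pos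
  have hlpos : 0 < l := Nat.card_pos
  have hqpos : 0 < q := Nat.card_pos
  have hrpos : 0 < r := Nat.card_pos
  have hzqpos : 0 < zq := Nat.card_pos
  have hzrpos : 0 < zr := Nat.card_pos
  -- q l = k zq ; r l = k zr ; q zq = r zr
  have e1 : q * q = r * r := by
    have : (q * q) * (l * zq * zr) = (r * r) * (l * zq * zr) := by
      calc (q * q) * (l * zq * zr) = (q * l) * (q * zq) * zr := by ring
        _ = (k * zq) * (r * zr) * zr := by rw [c1, hm]
        _ = (k * zr) * r * zq * zr := by ring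
        _ = (r * l) * r * zq * zr := by rw [c2]
        _ = _ := by ring
    exact Nat.eq_of_mul_eq_mul_right (by positivity) this
  have e2 : q = r := Nat.mul_self_inj.mp e1
  refine ⟨e2, ?_⟩
  rw [e2] at hm
  exact Nat.eq_of_mul_eq_mul_left hrpos hm

end Cfsg.Agent.H18.CL
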