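import Mathlib

set_option autoImplicit false

/-!
Class two subgroups from generators.
-/

namespace Cfsg.Agent.H18.Cl2

open Subgroup
open scoped commutatorElement

universe u
variable {G : Type u} [Group G]

theorem comm_mem_centralizer (s : Set G) (h : ∀ u ∈ s, ∀ v ∈ s, ∀ w ∈ s, Commute ⁅u, v⁆ w) :
    ∀ a ∈ closure s, ∀ b ∈ closure s, ⁅a, b⁆ ∈ centralizer (closure s : Set G) := by
  have hC : ∀ z : G, (∀ w ∈ s, Commute z w) → z ∈ centralizer (closure s : Set G) := by
    intro z hz
    rw [centralizer_closure]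
    rw [mem_centralizer_iff]
    intro w hw
    exact (hz w hw).eq.symm
  have hcomm : ∀ z ∈ centralizer (closure s : Set G), ∀ a ∈ closure s, a * z * a⁻¹ = z := by
    intro z hz a ha
    rw [mem_centralizer_iff] at hz
    rw [hz a ha, mul_inv_cancel_right]
  have h1 : ∀ v ∈ s, ∀ a ∈ closure s, ⁅a, v⁆ ∈ centralizer (closure s : Set G) := by
    intro v hv a ha
    induction ha using closure_induction with
    | mem u hu => exact hC _ (h u hu v hv)
    | one => rw [commutatorElement_one_left]; exact one_mem _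
    | mul a b ha hb iha ihb =>
      have e : ⁅a * b, v⁆ = a * ⁅b, v⁆ * a⁻¹ * ⁅a, v⁆ := by simp only [commutatorElement_def]; group
      rw [e, hcomm _ ihb a ha]
      exact mul_mem ihb iha
    | inv a ha iha =>
      have e : ⁅a⁻¹, v⁆ = a⁻¹ * ⁅a, v⁆⁻¹ * a⁻¹⁻¹ := by simp only [commutatorElement_def]; group
      rw [e, hcomm _ (inv_mem iha) a⁻¹ (inv_mem ha)]
      exact inv_mem iha
  intro a ha b hb
  induction hb using closure_induction with
  | mem v hv => exact h1 v hv a ha
  | one => rw [commutatorElement_one_right]; exact one_mem _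
  | mul b c hb hc ihb ihc =>
    have e : ⁅a, b * c⁆ = ⁅a, b⁆ * (b * ⁅a, c⁆ * b⁻¹) := by simp only [commutatorElement_def]; group
    rw [e, hcomm _ ihc b hb]
    exact mul_mem ihb ihc
  | inv b hb ihb =>
    have e : ⁅a, b⁻¹⁆ = b⁻¹ * ⁅a, b⁆⁻¹ * b⁻¹⁻¹ := by simp only [commutatorElement_def]; group
    rw [e, hcomm _ (inv_mem ihb) b⁻¹ (inv_mem hb)]
    exact inv_mem ihb

/-- nilpotency class at most two from generators. -/
theorem class_two (s : Set G) (h : ∀ u ∈ s, ∀ v ∈ s, ∀ w ∈ s, Commute ⁅u, v⁆ w) :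
    ⁅⁅closure s, closure s⁆, closure s⁆ = ⊥ := by
  rw [commutator_eq_bot_iff_le_centralizer, commutator_le]
  exact comm_mem_centralizer s h

end Cfsg.Agent.H18.Cl2
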