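import Cfsg.Prelude.Def_DStar
import Cfsg.Prelude.Def_PLocal
import Cfsg.Agent.H18_Cl2
import Cfsg.Agent.H18_CD
import Cfsg.Agent.H17_Base2
import Cfsg.Agent.H1_Subn
import Cfsg.Agent.H24_Sub

set_option autoImplicit false

/-!
The subgroup `D*(S)`.
-/

namespace Cfsg.Agent.H18.DStar

open Subgroup Cfsg Cfsg.Agent.H17.Base
open scoped commutatorElement

universe u
variable {S : Type u} [Group S]

theorem comm_of {A : Subgroup S} (hA : IsMulCommutative A) {a b : S} (ha : a ∈ A) (hb : b ∈ A) : a * b = b * a := by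
  haveI := hA
  exact congrArg Subtype.val (mul_comm' (⟨a, ha⟩ : A) ⟨b, hb⟩)

theorem isMulCommutative_of {A : Subgroup S} (h : ∀ a ∈ A, ∀ b ∈ A, a * b = b * a) : IsMulCommutative A :=
  ⟨⟨fun a b => Subtype.ext (h a a.2 b b.2)⟩⟩

theorem closure_form (A : Subgroup S) (x : S) : A ⊔ zpowers x = closure ((A : Set S) ∪ {x}) := by
  rw [Subgroup.closure_union, closure_eq, zpowers_eq_closure]

/-- the defining property, with generators -/
theorem centralizes {A : Subgroup S} (hA : A ∈ dStarFamily S) {x : S}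
    (h1 : ∀ a ∈ A, ∀ b ∈ A, Commute ⁅x, a⁆ b) (h2 : ∀ a ∈ A, Commute ⁅x, a⁆ x) : ∀ a ∈ A, a * x = x * a := by
  apply hA.2 x
  rw [closure_form]
  apply Cfsg.Agent.H18.Cl2.class_two
  have key : ∀ a ∈ A, ∀ w ∈ (A : Set S) ∪ {x}, Commute ⁅x, a⁆ w := by
    intro a ha w hw
    rcases hw with hw | hw
    · exact h1 a ha w hw
    · rw [Set.mem_singleton_iff] at hw; subst hw; exact h2 a ha
  intro u hu v hv w hw
  rcases hu with hu | hu
  · rcases hv with hv | hv
    · have : ⁅u, v⁆ = 1 := commutatorElement_eq_one_iff_mul_comm.mpr (comm_of hA.1 hu hv)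
      rw [this]; exact Commute.one_left w
    · rw [Set.mem_singleton_iff] at hv; subst hv
      have : ⁅u, v⁆ = ⁅v, u⁆⁻¹ := (commutatorElement_inv v u).symm
      rw [this]; exact (key u hu w hw).inv_left
  · rw [Set.mem_singleton_iff] at hu; subst hu
    rcases hv with hv | hv
    · exact key v hv w hw
    · rw [Set.mem_singleton_iff] at hv; subst hv
      rw [commutatorElement_self]; exact Commute.one_left w

/-- no quadratic action on a member. -/
theorem centralizes_of_quadratic {A : Subgroup S} (hA : A ∈ dStarFamily S) {x : S} (hx : x ∈ normalizer (A : Set S))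
    (h2 : ∀ a ∈ A, Commute ⁅x, a⁆ x) : ∀ a ∈ A, a * x = x * a := by
  apply centralizes hA _ h2
  intro a ha b hb
  have h3 : ⁅x, a⁆ ∈ A := by
    rw [commutatorElement_def]
    exact A.mul_mem ((mem_normalizer_iff.mp hx a).mp ha) (A.inv_mem ha)
  exact comm_of hA.1 h3 hb

theorem mem_family_map {A : Subgroup S} (hA : A ∈ dStarFamily S) (e : S ≃* S) : A.map e.toMonoidHom ∈ dStarFamily S := by
  refine ⟨?_, ?_⟩
  · haveI := hA.1; infer_instance
  · intro x hx
    have h1 : ∀ a ∈ A, a * e.symm x = e.symm x * a := by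
      apply hA.2
      have h2 : (A ⊔ zpowers (e.symm x)) = (A.map e.toMonoidHom ⊔ zpowers x).map e.symm.toMonoidHom := by
        rw [Subgroup.map_sup, Subgroup.map_map, MonoidHom.map_zpowers]
        have : (e.symm.toMonoidHom).comp e.toMonoidHom = MonoidHom.id S := by
          ext y; simp
        rw [this, map_id]; rfl
      rw [h2, ← map_commutator, ← map_commutator, hx, Subgroup.map_bot]
    rintro _ ⟨a, ha, rfl⟩
    have h3 := congrArg e (h1 a ha)
    rw [map_mul, map_mul, MulEquiv.apply_symm_apply] at h3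
    exact h3

theorem conj_mem_family {A : Subgroup S} (hA : A ∈ dStarFamily S) (g : S) : cj g A ∈ dStarFamily S :=
  mem_family_map hA (MulAut.conj g)

/-- join of a family of commuting members -/
theorem sSup_mem_family {X : Set (Subgroup S)} (hX : ∀ A ∈ X, A ∈ dStarFamily S)
    (hc : ∀ A ∈ X, ∀ B ∈ X, ∀ a ∈ A, ∀ b ∈ B, a * b = b * a) : sSup X ∈ dStarFamily S := by
  have hcl : sSup X = closure (⋃ A ∈ X, (A : Set S)) := by
    rw [Subgroup.closure_iUnion]
    simp only [Subgroup.closure_iUnion, closure_eq]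
    rw [sSup_eq_iSup]
  refine ⟨?_, ?_⟩
  · rw [hcl]
    apply Subgroup.isMulCommutative_closure
    intro a ha b hb
    simp only [Set.mem_iUnion] at ha hb
    obtain ⟨A, hA, haA⟩ := ha
    obtain ⟨B, hB, hbB⟩ := hb
    exact hc A hA B hB a haA b hbB
  · intro x hx
    have h1 : sSup X ≤ centralizer ({x} : Set S) := by
      apply sSup_le
      intro A hA a ha
      rw [mem_centralizer_singleton_iff]
      apply (hX A hA).2 x _ a ha
      rw [eq_bot_iff, ← hx]
      have h2 : A ⊔ zpowers x ≤ sSup X ⊔ zpowers x := sup_le_sup_right (le_sSup hA) _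
      exact commutator_mono (commutator_mono h2 h2) h2
    intro a ha
    exact mem_centralizer_singleton_iff.mp (h1 ha)

/-- members normalizing each other commute -/
theorem commute_of_normalize {A B : Subgroup S} (hA : A ∈ dStarFamily S) (hB : B ∈ dStarFamily S)
    (hAB : A ≤ normalizer (B : Set S)) (hBA : B ≤ normalizer (A : Set S)) : ∀ a ∈ A, ∀ b ∈ B, a * b = b * a := by
  intro a ha b hb
  apply centralizes_of_quadratic hA (hBA hb) _ a ha
  intro a ha
  have h3 : ⁅b, a⁆ ∈ B := by
    have h4 : ⁅b, a⁆ = b * (a * b⁻¹ * a⁻¹) := by rw [commutatorElement_def]; group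
    rw [h4]
    exact B.mul_mem hb ((mem_normalizer_iff.mp (hAB ha) _).mp (B.inv_mem hb))
  exact comm_of hB.1 h3 hb

variable [Finite S] {p : ℕ} [Fact p.Prime]

/-- if a member `X` normalizes a member `T` then they commute. -/
theorem commute_of_le_normalizer (hS : IsPGroup p S) {X T : Subgroup S} (hX : X ∈ dStarFamily S) (hT : T ∈ dStarFamily S)
    (h : X ≤ normalizer (T : Set S)) : ∀ a ∈ X, ∀ b ∈ T, a * b = b * a := by
  by_cases hTX : T ≤ normalizer (X : Set S)
  · exact commute_of_normalize hX hT h hTX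
  exfalso
  -- `S₁ = X T`
  set S₁ := X ⊔ T with hS₁
  set Q := S₁ ⊓ normalizer (X : Set S) with hQ
  have hQlt : Q < S₁ := by
    refine lt_of_le_of_ne inf_le_left ?_
    intro h0
    apply hTX
    have h1 : S₁ ≤ normalizer (X : Set S) := by rw [← h0]; exact inf_le_right
    exact le_sup_right.trans h1
  obtain ⟨y, hy, hyQ, hynQ⟩ := exists_mem_Nz_notMem (hS.to_subgroup S₁) hQlt
  -- write `y = x t`
  obtain ⟨x, hx, t, ht, rfl⟩ := (mem_sup_of_le_Nz h).mp hy
  have hXQ : X ≤ Q := le_inf le_sup_left Subgroup.le_normalizer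
  have htQ : t ∈ Nz Q := by
    have h1 : x⁻¹ ∈ Nz Q := Subgroup.le_normalizer (Q.inv_mem (hXQ hx))
    have := (Nz Q).mul_mem h1 hyQ
    rwa [inv_mul_cancel_left] at this
  have htX : t ∉ normalizer (X : Set S) := by
    intro h1
    apply hynQ
    exact Q.mul_mem (hXQ hx) ⟨mem_sup_right ht, h1⟩
  -- `X` and `X^t` normalize each other
  have hQX : Q ≤ normalizer (X : Set S) := inf_le_right
  have hXtQ : cj t X ≤ Q := by
    have := cj_mono (g := t) hXQ
    rwa [cj_eq_of_mem_Nz htQ] at this
  have hQXt : Q ≤ Nz (cj t X) := by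
    have h1 : cj t Q ≤ cj t (Nz X) := cj_mono hQX
    rwa [cj_eq_of_mem_Nz htQ, cj_Nz] at h1
  have hcomm := commute_of_normalize hX (conj_mem_family hX t) (hXQ.trans hQXt) (hXtQ.trans hQX)
  -- `t` centralizes `X`
  have hcent : ∀ a ∈ X, a * t = t * a := by
    apply centralizes hX
    · intro a ha b hb
      have h1 : ⁅t, a⁆ = (t * a * t⁻¹) * a⁻¹ := by rw [commutatorElement_def]
      rw [h1]
      have h2 : b * (t * a * t⁻¹) = (t * a * t⁻¹) * b := hcomm b hb _ (conj_mem_cj ha)
      have h3 : Commute b (t * a * t⁻¹) := h2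
      have h4 : Commute a b := comm_of hX.1 ha hb
      exact h3.symm.mul_left h4.inv_left
    · intro a ha
      have h1 : ⁅t, a⁆ = t * (a * t⁻¹ * a⁻¹) := by rw [commutatorElement_def]; group
      have h2 : ⁅t, a⁆ ∈ T := by
        rw [h1]
        exact T.mul_mem ht ((mem_normalizer_iff.mp (h ha) _).mp (T.inv_mem ht))
      exact comm_of hT.1 h2 ht
  apply htX
  rw [mem_normalizer_iff]
  intro a
  constructor
  · intro ha
    rw [← hcent a ha, mul_inv_cancel_right]; exact ha
  · intro ha
    have h1 := hcent _ ha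
    have h2 : a = t * a * t⁻¹ := by
      have h3 : t * a * t⁻¹ * t = t * (t * a * t⁻¹) := h1
      rw [inv_mul_cancel_right] at h3
      exact mul_left_cancel h3
    rw [h2]; exact ha

/-- `D*(S)` is a member of the family. -/
theorem dStar_mem (hS : IsPGroup p S) : dStar S ∈ dStarFamily S := by
  classical
  -- a maximal member
  have hne : (dStarFamily S).Nonempty := by
    refine ⟨⊥, ?_, ?_⟩
    · infer_instance
    · intro x _ a ha
      rw [mem_bot] at ha; rw [ha, one_mul, mul_one]
  obtain ⟨T, hT, hTmax⟩ := Set.Finite.exists_maximalFor (fun X : Subgroup S => X) (dStarFamily S) (Set.toFinite _) hne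
  have hall : ∀ A ∈ dStarFamily S, A ≤ T := by
    by_contra hcon
    push Not at hcon
    obtain ⟨A, hA, hAT⟩ := hcon
    have hss : {X ∈ dStarFamily S | X ≤ T} ⊂ dStarFamily S := by
      refine ⟨fun X hX => hX.1, fun hsub => hAT (hsub hA).2⟩
    haveI := hS.isNilpotent
    obtain ⟨X, hX, hXT, hXn⟩ := Cfsg.Agent.H1.Subn.exists_le_normalizer_sSup (dStarFamily S) {X ∈ dStarFamily S | X ≤ T}
      (fun U _ => Cfsg.Agent.H24.Sub.isSubnormal_of_nilpotent hS.isNilpotent U) (fun U hU g => conj_mem_family hU g) hss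
    have hsup : sSup {X ∈ dStarFamily S | X ≤ T} = T :=
      le_antisymm (sSup_le fun X hX => hX.2) (le_sSup ⟨hT, le_rfl⟩)
    rw [hsup] at hXn
    have hc := commute_of_le_normalizer hS hX hT hXn
    have h1 : sSup ({X, T} : Set (Subgroup S)) ∈ dStarFamily S := by
      apply sSup_mem_family
      · rintro B (rfl | rfl)
        · exact hX
        · exact hT
      · rintro B (rfl | rfl) C (rfl | rfl) b hb c hc'
        · exact comm_of hX.1 hb hc'
        · exact hc b hb c hc'
        · exact (hc c hc' b hb).symm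
        · exact comm_of hT.1 hb hc'
    rw [sSup_pair] at h1
    have h2 := hTmax h1 le_sup_right
    exact hXT ⟨hX, le_sup_left.trans h2⟩
  have : dStar S = T := le_antisymm (sSup_le hall) (le_sSup hT)
  rw [this]; exact hT

end Cfsg.Agent.H18.DStar
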