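import Mathlib

set_option autoImplicit false
set_option linter.all false

/-! Counting derangements: Cameron-Cohen, and the two-point stabilizer form of the count in doubly transitive groups. -/

open MulAction Finset
open scoped Classical

namespace Cfsg.Agent.H18.Der

universe u v

variable {G : Type u} (Ω : Type v) [Group G] [Fintype G] [MulAction G Ω] [Fintype Ω]

/-- number of fixed points -/
noncomputable def fx (g : G) : ℕ := (univ.filter (fun ω : Ω => g • ω = ω)).card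

theorem fx_eq (g : G) : fx Ω g = Fintype.card (fixedBy Ω g) := by
  rw [fx, ← Fintype.card_subtype]
  exact Fintype.card_congr (Equiv.refl _)

theorem fx_prod (g : G) : fx (Ω × Ω) g = fx Ω g * fx Ω g := by
  rw [fx, fx, ← card_product]
  congr 1
  ext ⟨a, b⟩
  simp only [mem_filter, mem_univ, true_and, mem_product, Prod.smul_mk, Prod.mk.injEq]

theorem sum_fx : ∑ g : G, fx Ω g = Fintype.card (orbitRel.Quotient G Ω) * Fintype.card G := by
  rw [← sum_card_fixedBy_eq_card_orbits_mul_card_group G Ω]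
  exact sum_congr rfl fun g _ => fx_eq Ω g

theorem sum_fx_one [IsPretransitive G Ω] [Nonempty Ω] : ∑ g : G, fx Ω g = Fintype.card G := by
  rw [sum_fx]
  have h1 : Fintype.card (orbitRel.Quotient G Ω) = 1 := by
    rw [Fintype.card_eq_one_iff]
    obtain ⟨a⟩ := ‹Nonempty Ω›
    refine ⟨Quotient.mk'' a, fun q => ?_⟩
    induction q using Quotient.inductionOn' with
    | _ b => exact Quotient.sound' (exists_smul_eq G a b)
  rw [h1, one_mul]

theorem sum_fx_sq : ∑ g : G, fx Ω g * fx Ω g = Fintype.card (orbitRel.Quotient G (Ω × Ω)) * Fintype.card G := by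
  rw [← sum_fx]
  exact sum_congr rfl fun g _ => (fx_prod Ω g).symm

/-- double transitivity -/
def T2 (G : Type u) (Ω : Type v) [Group G] [MulAction G Ω] : Prop :=
  ∀ a b c d : Ω, a ≠ b → c ≠ d → ∃ g : G, g • a = c ∧ g • b = d

theorem mk_eq_iff {p q : Ω × Ω} : (Quotient.mk'' p : orbitRel.Quotient G (Ω × Ω)) = Quotient.mk'' q ↔ ∃ g : G, g • q.1 = p.1 ∧ g • q.2 = p.2 := by
  rw [Quotient.eq'']
  constructor
  · rintro ⟨g, hg⟩
    exact ⟨g, congrArg Prod.fst hg, congrArg Prod.snd hg⟩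
  · rintro ⟨g, h1, h2⟩
    exact ⟨g, Prod.ext h1 h2⟩

theorem card_quot_ge [Nonempty Ω] (h : ¬ T2 G Ω) : 3 ≤ Fintype.card (orbitRel.Quotient G (Ω × Ω)) := by
  unfold T2 at h
  push Not at h
  obtain ⟨a, b, c, d, hab, hcd, hg⟩ := h
  have h1 : (Quotient.mk'' (a, a) : orbitRel.Quotient G (Ω × Ω)) ≠ Quotient.mk'' (a, b) := by
    rw [Ne, mk_eq_iff]
    rintro ⟨g, h1, h2⟩
    exact hab (smul_left_cancel g (h1.trans h2.symm))
  have h2 : (Quotient.mk'' (a, a) : orbitRel.Quotient G (Ω × Ω)) ≠ Quotient.mk'' (c, d) := by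
    rw [Ne, mk_eq_iff]
    rintro ⟨g, h1, h2⟩
    exact hcd (smul_left_cancel g (h1.trans h2.symm))
  have h3 : (Quotient.mk'' (c, d) : orbitRel.Quotient G (Ω × Ω)) ≠ Quotient.mk'' (a, b) := by
    rw [Ne, mk_eq_iff]
    rintro ⟨g, h1, h2⟩
    exact hg g h1 h2
  have h4 : ({Quotient.mk'' (a, a), Quotient.mk'' (a, b), Quotient.mk'' (c, d)} : Finset (orbitRel.Quotient G (Ω × Ω))).card = 3 := by
    rw [card_eq_three]
    exact ⟨_, _, _, h1, h2, h3.symm, rfl⟩
  rw [← h4]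
  exact card_le_univ _

theorem card_quot_two {a b : Ω} (hab : a ≠ b) (ht : IsPretransitive G Ω) (h : T2 G Ω) : Fintype.card (orbitRel.Quotient G (Ω × Ω)) = 2 := by
  have h1 : (Quotient.mk'' (a, a) : orbitRel.Quotient G (Ω × Ω)) ≠ Quotient.mk'' (a, b) := by
    rw [Ne, mk_eq_iff]
    rintro ⟨g, h1, h2⟩
    exact hab (smul_left_cancel g (h1.trans h2.symm))
  rw [← Finset.card_univ, card_eq_two]
  refine ⟨_, _, h1, ?_⟩
  rw [eq_comm, eq_univ_iff_forall]
  intro q
  rw [mem_insert, mem_singleton]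
  induction q using Quotient.inductionOn' with
  | _ q =>
    obtain ⟨c, d⟩ := q
    by_cases hcd : c = d
    · left
      rw [mk_eq_iff]
      obtain ⟨g, hg⟩ := exists_smul_eq G a c
      exact ⟨g, hg, by rw [← hcd]; exact hg⟩
    · right
      rw [mk_eq_iff]
      exact h a b c d hab hcd

/-- weighted count over the elements fixing two points -/
noncomputable def P (w : G → ℚ) (a b : Ω) : ℚ := ∑ g ∈ univ.filter (fun g : G => g • a = a ∧ g • b = b), w g

theorem P_conj (w : G → ℚ) (hw : ∀ x g, w (x * g * x⁻¹) = w g) (x : G) (a b : Ω) : P Ω w (x • a) (x • b) = P Ω w a b := by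
  unfold P
  symm
  apply sum_bij (fun g _ => x * g * x⁻¹)
  · intro g hg
    rw [mem_filter] at hg ⊢
    refine ⟨mem_univ _, ?_, ?_⟩
    · rw [← mul_smul, inv_mul_cancel_right, mul_smul, hg.2.1]
    · rw [← mul_smul, inv_mul_cancel_right, mul_smul, hg.2.2]
  · intro g _ g' _ h
    exact mul_left_cancel (mul_right_cancel h)
  · intro g hg
    rw [mem_filter] at hg
    refine ⟨x⁻¹ * g * x, ?_, by group⟩
    rw [mem_filter]
    refine ⟨mem_univ _, ?_, ?_⟩
    · rw [mul_smul, mul_smul, hg.2.1, inv_smul_smul]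
    · rw [mul_smul, mul_smul, hg.2.2, inv_smul_smul]
  · intro g _
    exact (hw x g).symm

theorem dc (w : G → ℚ) : ∑ g : G, ((fx Ω g * fx Ω g - fx Ω g : ℕ) : ℚ) * w g = ∑ p ∈ (univ : Finset Ω).offDiag, P Ω w p.1 p.2 := by
  have h1 : ∀ g : G, ((fx Ω g * fx Ω g - fx Ω g : ℕ) : ℚ) * w g = ∑ p ∈ (univ.filter (fun ω : Ω => g • ω = ω)).offDiag, w g := by
    intro g
    rw [sum_const, offDiag_card, nsmul_eq_mul]
    rfl
  rw [sum_congr rfl fun g _ => h1 g]
  unfold P
  apply sum_comm'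
  intro g p
  simp only [mem_univ, true_and, mem_offDiag, mem_filter]
  tauto

theorem fx_conj (x g : G) : fx Ω (x * g * x⁻¹) = fx Ω g := by
  unfold fx
  symm
  apply card_bij (fun ω _ => x • ω)
  · intro ω hω
    rw [mem_filter] at hω ⊢
    refine ⟨mem_univ _, ?_⟩
    rw [← mul_smul, inv_mul_cancel_right, mul_smul, hω.2]
  · intro a _ b _ h
    exact smul_left_cancel x h
  · intro b hb
    rw [mem_filter] at hb
    refine ⟨x⁻¹ • b, ?_, smul_inv_smul x b⟩
    rw [mem_filter]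
    refine ⟨mem_univ _, ?_⟩
    have h1 := hb.2
    rw [mul_smul, mul_smul] at h1
    rw [← smul_left_cancel_iff x, h1, smul_inv_smul]

theorem fx_one : fx Ω (1 : G) = Fintype.card Ω := by
  unfold fx
  rw [filter_true_of_mem (fun ω _ => one_smul G ω), Finset.card_univ]

theorem fx_le (g : G) : fx Ω g ≤ Fintype.card Ω := card_le_univ _

/-- the weight -/
noncomputable def wt (g : G) : ℚ := if g = 1 then 0 else ((Fintype.card Ω : ℚ) - fx Ω g) / fx Ω g

theorem wt_conj (x g : G) : wt Ω (x * g * x⁻¹) = wt Ω g := by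
  unfold wt
  have h1 : x * g * x⁻¹ = 1 ↔ g = 1 := conj_eq_one_iff
  simp only [h1, fx_conj]

theorem wt_nonneg (g : G) : 0 ≤ wt Ω g := by
  unfold wt
  split_ifs
  · exact le_rfl
  · apply div_nonneg
    · rw [sub_nonneg]
      exact_mod_cast fx_le Ω g
    · exact Nat.cast_nonneg _

theorem sum_const_P {a b : Ω} (hab : a ≠ b) (h : T2 G Ω) (w : G → ℚ) (hw : ∀ x g, w (x * g * x⁻¹) = w g) :
    ∑ p ∈ (univ : Finset Ω).offDiag, P Ω w p.1 p.2 = (Fintype.card Ω : ℚ) * (Fintype.card Ω - 1) * P Ω w a b := by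
  have h1 : ∀ p ∈ (univ : Finset Ω).offDiag, P Ω w p.1 p.2 = P Ω w a b := by
    intro p hp
    rw [mem_offDiag] at hp
    obtain ⟨g, h1, h2⟩ := h a b p.1 p.2 hab hp.2.2
    rw [← h1, ← h2, P_conj Ω w hw]
  rw [sum_congr rfl h1, sum_const, offDiag_card, nsmul_eq_mul, Finset.card_univ, Nat.cast_sub (Nat.le_mul_self _)]
  push_cast
  ring

theorem card_eq {a b : Ω} (hab : a ≠ b) (ht : IsPretransitive G Ω) (h : T2 G Ω) :
    (Fintype.card G : ℚ) = (Fintype.card Ω : ℚ) * (Fintype.card Ω - 1) * P Ω (fun _ : G => (1 : ℚ)) a b := by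
  haveI : Nonempty Ω := ⟨a⟩
  rw [← sum_const_P Ω hab h (fun _ => 1) (fun _ _ => rfl), ← dc]
  have h1 := sum_fx_sq (G := G) Ω
  have h2 := sum_fx_one (G := G) Ω
  rw [card_quot_two Ω hab ht h] at h1
  have h3 : ∀ g : G, ((fx Ω g * fx Ω g - fx Ω g : ℕ) : ℚ) * 1 = ((fx Ω g * fx Ω g : ℕ) : ℚ) - ((fx Ω g : ℕ) : ℚ) := by
    intro g
    rw [Nat.cast_sub (Nat.le_mul_self _), mul_one]
  rw [sum_congr rfl fun g _ => h3 g, sum_sub_distrib, ← Nat.cast_sum, ← Nat.cast_sum, h1, h2]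
  push_cast
  ring

theorem count_gen [Nonempty Ω] (ht : IsPretransitive G Ω) :
    (Fintype.card Ω : ℚ) * (univ.filter (fun g : G => fx Ω g = 0)).card =
      ((Fintype.card (orbitRel.Quotient G (Ω × Ω)) : ℚ) - 1) * Fintype.card G +
        ∑ g ∈ univ.filter (fun g : G => ¬ fx Ω g = 0), ((fx Ω g : ℚ) - 1) * (Fintype.card Ω - fx Ω g) := by
  have h1 := sum_fx_sq (G := G) Ω
  have h2 := sum_fx_one (G := G) Ω
  have h3 : ∑ g : G, ((fx Ω g : ℚ) - 1) * (Fintype.card Ω - fx Ω g) =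
      (1 - (Fintype.card (orbitRel.Quotient G (Ω × Ω)) : ℚ)) * Fintype.card G := by
    have h4 : ∀ g : G, ((fx Ω g : ℚ) - 1) * (Fintype.card Ω - fx Ω g) =
        ((Fintype.card Ω : ℚ) + 1) * (fx Ω g : ℚ) - ((fx Ω g * fx Ω g : ℕ) : ℚ) - (Fintype.card Ω : ℚ) := by
      intro g
      push_cast
      ring
    rw [sum_congr rfl fun g _ => h4 g, sum_sub_distrib, sum_sub_distrib, ← mul_sum, ← Nat.cast_sum, ← Nat.cast_sum, h1, h2, sum_const,
      Finset.card_univ, nsmul_eq_mul]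
    push_cast
    ring
  rw [← sum_filter_add_sum_filter_not univ (fun g : G => fx Ω g = 0)] at h3
  have h5 : ∑ g ∈ univ.filter (fun g : G => fx Ω g = 0), ((fx Ω g : ℚ) - 1) * (Fintype.card Ω - fx Ω g) =
      -((Fintype.card Ω : ℚ) * (univ.filter (fun g : G => fx Ω g = 0)).card) := by
    have h6 : ∀ g ∈ univ.filter (fun g : G => fx Ω g = 0), ((fx Ω g : ℚ) - 1) * (Fintype.card Ω - fx Ω g) = -(Fintype.card Ω : ℚ) := by
      intro g hg
      rw [mem_filter] at hg
      rw [hg.2]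
      push_cast
      ring
    rw [sum_congr rfl h6, sum_const, nsmul_eq_mul]
    ring
  rw [h5] at h3
  linarith

theorem terms_nonneg : 0 ≤ ∑ g ∈ univ.filter (fun g : G => ¬ fx Ω g = 0), ((fx Ω g : ℚ) - 1) * (Fintype.card Ω - fx Ω g) := by
  apply sum_nonneg
  intro g hg
  rw [mem_filter] at hg
  apply mul_nonneg
  · rw [sub_nonneg]
    exact_mod_cast Nat.one_le_iff_ne_zero.2 hg.2
  · rw [sub_nonneg]
    exact_mod_cast fx_le Ω g

theorem terms_eq {a b : Ω} (hab : a ≠ b) (h : T2 G Ω) :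
    ∑ g ∈ univ.filter (fun g : G => ¬ fx Ω g = 0), ((fx Ω g : ℚ) - 1) * (Fintype.card Ω - fx Ω g) =
      (Fintype.card Ω : ℚ) * (Fintype.card Ω - 1) * P Ω (wt (G := G) Ω) a b := by
  rw [← sum_const_P Ω hab h (wt Ω) (wt_conj Ω), ← dc, ← sum_filter_add_sum_filter_not univ (fun g : G => fx Ω g = 0)]
  have h1 : ∑ g ∈ univ.filter (fun g : G => fx Ω g = 0), ((fx Ω g * fx Ω g - fx Ω g : ℕ) : ℚ) * wt Ω g = 0 := by
    apply sum_eq_zero
    intro g hg
    rw [mem_filter] at hg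
    rw [hg.2]
    simp
  rw [h1, zero_add]
  apply sum_congr rfl
  intro g hg
  rw [mem_filter] at hg
  have h2 : (fx Ω g : ℚ) ≠ 0 := by exact_mod_cast hg.2
  rw [Nat.cast_sub (Nat.le_mul_self _)]
  unfold wt
  split_ifs with h3
  · rw [h3, fx_one, sub_self, mul_zero, mul_zero]
  · push_cast
    field_simp

end Cfsg.Agent.H18.Der
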