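import Cfsg.Agent.H18_Der1

set_option autoImplicit false
set_option linter.all false

/-! Doubly transitive groups: the linear space of fixed point sets of two-point stabilizers. -/

open MulAction Finset
open scoped Classical

namespace Cfsg.Agent.H18.Der

universe u v

variable {G : Type u} {Ω : Type v} [Group G] [Fintype G] [MulAction G Ω] [Fintype Ω]

variable (G) in
/-- two-point stabilizer -/
def St (a b : Ω) : Subgroup G := stabilizer G a ⊓ stabilizer G b

theorem mem_St {a b : Ω} {g : G} : g ∈ St G a b ↔ g • a = a ∧ g • b = b := by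
  rw [St, Subgroup.mem_inf, mem_stabilizer_iff, mem_stabilizer_iff]

variable (G) in
/-- line through two points -/
noncomputable def ln (a b : Ω) : Finset Ω := univ.filter (fun ω => ∀ g ∈ St G a b, g • ω = ω)

theorem mem_ln {a b ω : Ω} : ω ∈ ln G a b ↔ ∀ g ∈ St G a b, g • ω = ω := by
  rw [ln, mem_filter]
  simp

theorem St_comm (a b : Ω) : St G a b = St G b a := inf_comm _ _

theorem ln_comm (a b : Ω) : ln G a b = ln G b a := by
  ext ω; rw [mem_ln, mem_ln, St_comm]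

theorem left_mem_ln (a b : Ω) : a ∈ ln G a b := mem_ln.2 fun g hg => (mem_St.1 hg).1

theorem right_mem_ln (a b : Ω) : b ∈ ln G a b := mem_ln.2 fun g hg => (mem_St.1 hg).2

theorem St_smul (x : G) (a b : Ω) {g : G} : x * g * x⁻¹ ∈ St G (x • a) (x • b) ↔ g ∈ St G a b := by
  rw [mem_St, mem_St]
  constructor
  · rintro ⟨h1, h2⟩
    rw [← mul_smul, inv_mul_cancel_right, mul_smul, smul_left_cancel_iff] at h1 h2
    exact ⟨h1, h2⟩
  · rintro ⟨h1, h2⟩
    rw [← mul_smul, inv_mul_cancel_right, mul_smul, h1, ← mul_smul, inv_mul_cancel_right, mul_smul, h2]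
    exact ⟨rfl, rfl⟩

theorem St_smul_eq (x : G) (a b : Ω) : St G (x • a) (x • b) = (St G a b).map (MulAut.conj x).toMonoidHom := by
  ext g
  rw [Subgroup.mem_map]
  constructor
  · intro hg
    refine ⟨x⁻¹ * g * x, ?_, ?_⟩
    · rw [← St_smul x]
      convert hg using 1
      group
    · show x * (x⁻¹ * g * x) * x⁻¹ = g
      group
  · rintro ⟨g, hg, rfl⟩
    exact (St_smul x a b).2 hg

theorem card_St_smul (x : G) (a b : Ω) : Nat.card (St G (x • a) (x • b)) = Nat.card (St G a b) := by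
  rw [St_smul_eq]
  exact Subgroup.card_map_of_injective (MulAut.conj x).injective

theorem smul_mem_ln {x : G} {a b ω : Ω} : x • ω ∈ ln G (x • a) (x • b) ↔ ω ∈ ln G a b := by
  rw [mem_ln, mem_ln]
  constructor
  · intro h g hg
    have h1 := h _ ((St_smul x a b).2 hg)
    rwa [← mul_smul, inv_mul_cancel_right, mul_smul, smul_left_cancel_iff] at h1
  · intro h g hg
    have h1 := h (x⁻¹ * g * x) (by
      rw [← St_smul x]
      convert hg using 1
      group)
    rw [mul_smul, mul_smul] at h1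
    rw [← smul_left_cancel_iff x⁻¹, h1, inv_smul_smul]

theorem card_ln_smul (x : G) (a b : Ω) : (ln G (x • a) (x • b)).card = (ln G a b).card := by
  symm
  apply card_bij (fun ω _ => x • ω)
  · intro ω hω
    exact smul_mem_ln.2 hω
  · intro a _ b _ h
    exact smul_left_cancel x h
  · intro ω hω
    refine ⟨x⁻¹ • ω, ?_, smul_inv_smul x ω⟩
    rw [← smul_mem_ln (x := x), smul_inv_smul]
    exact hω

theorem card_St_eq (h2 : T2 G Ω) {a b c d : Ω} (hab : a ≠ b) (hcd : c ≠ d) : Nat.card (St G a b) = Nat.card (St G c d) := by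
  obtain ⟨x, rfl, rfl⟩ := h2 a b c d hab hcd
  rw [card_St_smul]

theorem card_ln_eq (h2 : T2 G Ω) {a b c d : Ω} (hab : a ≠ b) (hcd : c ≠ d) : (ln G a b).card = (ln G c d).card := by
  obtain ⟨x, rfl, rfl⟩ := h2 a b c d hab hcd
  rw [card_ln_smul]

theorem St_eq_of_mem (h2 : T2 G Ω) {a b c d : Ω} (hab : a ≠ b) (hc : c ∈ ln G a b) (hd : d ∈ ln G a b) (hcd : c ≠ d) :
    St G c d = St G a b := by
  symm
  apply Subgroup.eq_of_le_of_card_ge
  · intro g hg
    exact mem_St.2 ⟨mem_ln.1 hc g hg, mem_ln.1 hd g hg⟩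
  · rw [card_St_eq h2 hab hcd]

theorem ln_eq_of_mem (h2 : T2 G Ω) {a b c d : Ω} (hab : a ≠ b) (hc : c ∈ ln G a b) (hd : d ∈ ln G a b) (hcd : c ≠ d) :
    ln G c d = ln G a b := by
  ext ω; rw [mem_ln, mem_ln, St_eq_of_mem h2 hab hc hd hcd]

theorem one_lt_card_ln {a b : Ω} (hab : a ≠ b) : 2 ≤ (ln G a b).card := by
  have : ({a, b} : Finset Ω).card = 2 := card_pair hab
  rw [← this]
  apply card_le_card
  intro ω hω
  rw [mem_insert, mem_singleton] at hω
  rcases hω with rfl | rfl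
  · exact left_mem_ln _ _
  · exact right_mem_ln _ _

/-- a non-identity element with two fixed points fixes at most `(n-1)/(φ-1)` points -/
theorem fx_bound [FaithfulSMul G Ω] (h2 : T2 G Ω) {a b : Ω} (hab : a ≠ b) {x : G} (hx : x ≠ 1) :
    ((ln G a b).card - 1) * fx Ω x ≤ Fintype.card Ω - 1 := by
  obtain ⟨ω, hω⟩ : ∃ ω : Ω, x • ω ≠ ω := by
    by_contra h
    push Not at h
    exact hx (FaithfulSMul.eq_of_smul_eq_smul (α := Ω) fun ω => by rw [h ω, one_smul])
  set S := univ.filter (fun ω : Ω => x • ω = ω) with hS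
  have hSm : ∀ μ, μ ∈ S ↔ x • μ = μ := fun μ => by rw [hS, mem_filter]; simp
  have hne : ∀ μ ∈ S, ω ≠ μ := by
    rintro μ hμ rfl
    exact hω ((hSm _).1 hμ)
  have hdis : ∀ μ ∈ S, ∀ μ' ∈ S, μ ≠ μ' → Disjoint ((ln G ω μ).erase ω) ((ln G ω μ').erase ω) := by
    intro μ hμ μ' hμ' hne'
    rw [disjoint_left]
    intro ν hν hν'
    rw [mem_erase] at hν hν'
    have h3 := ln_eq_of_mem h2 (hne μ hμ) (left_mem_ln ω μ) hν.2 hν.1.symm
    have h4 := ln_eq_of_mem h2 (hne μ' hμ') (left_mem_ln ω μ') hν'.2 hν'.1.symm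
    have h5 : μ' ∈ ln G ω μ := by rw [← h3, h4]; exact right_mem_ln _ _
    have h6 := St_eq_of_mem h2 (hne μ hμ) (right_mem_ln ω μ) h5 hne'
    have h7 : x ∈ St G μ μ' := mem_St.2 ⟨(hSm _).1 hμ, (hSm _).1 hμ'⟩
    rw [h6] at h7
    exact hω (mem_St.1 h7).1
  have h3 : (S.biUnion fun μ => (ln G ω μ).erase ω).card = ∑ μ ∈ S, ((ln G ω μ).erase ω).card := card_biUnion hdis
  have h4 : ∀ μ ∈ S, ((ln G ω μ).erase ω).card = (ln G a b).card - 1 := by
    intro μ hμ
    rw [card_erase_of_mem (left_mem_ln _ _), card_ln_eq h2 (hne μ hμ) hab]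
  rw [sum_congr rfl h4, sum_const, smul_eq_mul, mul_comm] at h3
  show ((ln G a b).card - 1) * S.card ≤ _
  rw [← h3, ← Finset.card_univ, ← card_erase_of_mem (mem_univ ω)]
  apply card_le_card
  intro ν hν
  rw [mem_biUnion] at hν
  obtain ⟨μ, hμ, hν⟩ := hν
  rw [mem_erase] at hν ⊢
  exact ⟨hν.1, mem_univ _⟩

/-- stabilizer of a further point -/
noncomputable def tt (G : Type u) [Group G] [MulAction G Ω] (a b ω : Ω) : ℕ := Nat.card (St G a b ⊓ stabilizer G ω : Subgroup G)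

theorem tt_dvd (a b ω : Ω) : tt G a b ω ∣ Nat.card (St G a b) := Subgroup.card_dvd_of_le inf_le_left

theorem tt_pos (a b ω : Ω) : 0 < tt G a b ω := Nat.card_pos

theorem tt_eq_iff {a b ω : Ω} : tt G a b ω = Nat.card (St G a b) ↔ ω ∈ ln G a b := by
  constructor
  · intro h
    have h1 : St G a b ⊓ stabilizer G ω = St G a b := Subgroup.eq_of_le_of_card_ge inf_le_left h.ge
    rw [inf_eq_left] at h1
    exact mem_ln.2 fun g hg => h1 hg
  · intro h
    have h1 : St G a b ≤ stabilizer G ω := fun g hg => mem_ln.1 h g hg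
    rw [tt, inf_eq_left.2 h1]

theorem two_tt_le {a b ω : Ω} (h : ω ∉ ln G a b) : 2 * tt G a b ω ≤ Nat.card (St G a b) := by
  obtain ⟨k, hk⟩ := tt_dvd (G := G) a b ω
  have h1 : k ≠ 0 := by
    rintro rfl
    rw [mul_zero] at hk
    exact Nat.card_pos.ne' hk
  have h2 : k ≠ 1 := by
    rintro rfl
    rw [mul_one] at hk
    exact h (tt_eq_iff.1 hk.symm)
  have h3 : 2 ≤ k := by omega
  rw [hk, mul_comm]
  exact Nat.mul_le_mul_left _ h3

theorem sum_tt (a b : Ω) : ∑ ω : Ω, tt G a b ω = ∑ x ∈ univ.filter (fun g : G => g • a = a ∧ g • b = b), fx Ω x := by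
  have h1 : ∀ ω : Ω, tt G a b ω = ∑ x ∈ univ.filter (fun g : G => (g • a = a ∧ g • b = b) ∧ g • ω = ω), 1 := by
    intro ω
    rw [tt, sum_const, smul_eq_mul, mul_one, Nat.card_eq_fintype_card, ← Fintype.card_coe]
    apply Fintype.card_congr
    apply Equiv.subtypeEquivRight
    intro g
    rw [Subgroup.mem_inf, mem_St, mem_stabilizer_iff, mem_filter]
    simp
  have h2 : ∀ x ∈ univ.filter (fun g : G => g • a = a ∧ g • b = b), fx Ω x = ∑ ω ∈ univ.filter (fun ω : Ω => x • ω = ω), 1 := by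
    intro x _
    rw [sum_const, smul_eq_mul, mul_one]; rfl
  rw [sum_congr rfl h2, sum_congr rfl fun ω _ => h1 ω]
  apply sum_comm'
  intro ω x
  simp only [mem_univ, true_and, mem_filter, and_true]
  tauto

theorem card_HF (a b : Ω) : (univ.filter (fun g : G => g • a = a ∧ g • b = b)).card = Nat.card (St G a b) := by
  rw [Nat.card_eq_fintype_card, ← Fintype.card_coe]
  apply Fintype.card_congr
  apply Equiv.subtypeEquivRight
  intro g
  rw [mem_St, mem_filter]
  simp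

theorem P_one (a b : Ω) : P Ω (fun _ : G => (1 : ℚ)) a b = Nat.card (St G a b) := by
  rw [P, sum_const, card_HF, nsmul_eq_mul, mul_one]

/-- non-identity elements of the two-point stabilizer -/
noncomputable def Hs (G : Type u) [Group G] [Fintype G] [MulAction G Ω] (a b : Ω) : Finset G :=
  (univ.filter (fun g : G => g • a = a ∧ g • b = b)).erase 1

theorem card_Hs (a b : Ω) : (Hs G a b).card = Nat.card (St G a b) - 1 := by
  rw [Hs, card_erase_of_mem, card_HF]
  rw [mem_filter]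
  exact ⟨mem_univ _, one_smul _ _, one_smul _ _⟩

theorem mem_Hs {a b : Ω} {x : G} : x ∈ Hs G a b ↔ x ≠ 1 ∧ x • a = a ∧ x • b = b := by
  rw [Hs, mem_erase, mem_filter]
  simp

theorem fx_pos_of_mem {a b : Ω} {x : G} (hx : x ∈ Hs G a b) : 0 < fx Ω x := by
  rw [fx, card_pos]
  exact ⟨a, by rw [mem_filter]; exact ⟨mem_univ _, (mem_Hs.1 hx).2.1⟩⟩

theorem P_wt (a b : Ω) : P Ω (wt (G := G) Ω) a b = ∑ x ∈ Hs G a b, (Fintype.card Ω : ℚ) / fx Ω x - (Hs G a b).card := by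
  have h1 : P Ω (wt (G := G) Ω) a b = ∑ x ∈ Hs G a b, wt Ω x := by
    rw [P, Hs, sum_erase]
    unfold wt
    rw [if_pos rfl]
  have h2 : ∀ x ∈ Hs G a b, wt Ω x = (Fintype.card Ω : ℚ) / fx Ω x - 1 := by
    intro x hx
    have h3 : (fx Ω x : ℚ) ≠ 0 := by exact_mod_cast (fx_pos_of_mem hx).ne'
    rw [wt, if_neg (mem_Hs.1 hx).1, sub_div, div_self h3]
  rw [h1, sum_congr rfl h2, sum_sub_distrib, sum_const, nsmul_eq_mul, mul_one]

theorem sum_Hs (a b : Ω) : ∑ x ∈ Hs G a b, fx Ω x + Fintype.card Ω = ∑ ω : Ω, tt G a b ω := by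
  rw [sum_tt, Hs, ← fx_one (G := G) Ω]
  apply sum_erase_add
  rw [mem_filter]
  exact ⟨mem_univ _, one_smul _ _, one_smul _ _⟩

/-- Cauchy-Schwarz form of the failure of the inequality -/
theorem fail_ineq {a b : Ω} (hh : 2 ≤ Nat.card (St G a b)) (hf : P Ω (wt (G := G) Ω) a b < Nat.card (St G a b)) :
    Fintype.card Ω * Nat.card (St G a b) ^ 2 < (2 * Nat.card (St G a b) - 1) * ∑ ω : Ω, tt G a b ω := by
  obtain ⟨h, hhd⟩ : ∃ h, h = Nat.card (St G a b) := ⟨_, rfl⟩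
  obtain ⟨n, hnd⟩ : ∃ n, n = Fintype.card Ω := ⟨_, rfl⟩
  obtain ⟨F, hFd⟩ : ∃ F, F = ∑ x ∈ Hs G a b, fx Ω x := ⟨_, rfl⟩
  rw [P_wt, card_Hs, ← hhd, ← hnd] at hf
  rw [← hhd, ← hnd, ← sum_Hs, ← hFd, ← hnd]
  rw [← hhd] at hh
  have hcard := card_Hs (G := G) a b
  rw [← hhd] at hcard
  have hpos : ∀ x ∈ Hs G a b, (0 : ℚ) < fx Ω x := fun x hx => by exact_mod_cast fx_pos_of_mem hx
  have h1 := sq_sum_div_le_sum_sq_div (Hs G a b) (fun _ => (1 : ℚ)) hpos
  rw [sum_const, nsmul_eq_mul, mul_one, ← Nat.cast_sum, ← hFd, hcard, Nat.cast_sub (by omega)] at h1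
  have h2 : ∑ x ∈ Hs G a b, (n : ℚ) / fx Ω x = n * ∑ x ∈ Hs G a b, (1 : ℚ) ^ 2 / fx Ω x := by
    rw [mul_sum]
    exact sum_congr rfl fun x _ => by rw [one_pow]; ring
  rw [h2, Nat.cast_sub (by omega)] at hf
  have hF : 0 < F := by
    rw [hFd]
    apply sum_pos
    · intro x hx; exact fx_pos_of_mem hx
    · rw [← card_pos, hcard]; omega
  have hFq : (0 : ℚ) < F := by exact_mod_cast hF
  have hnn : (0 : ℚ) ≤ n := Nat.cast_nonneg _
  have h3 := mul_le_mul_of_nonneg_left h1 hnn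
  have h4 : (n : ℚ) * ((((h : ℚ) - (1 : ℕ)) ^ 2) / F) < 2 * h - 1 := by
    push_cast at hf h3 ⊢
    linarith
  have h5 : (n : ℚ) * ((h : ℚ) - 1) ^ 2 < (2 * h - 1) * F := by
    rw [← mul_div_assoc, div_lt_iff₀ hFq] at h4
    push_cast at h4
    linarith
  have h6 : (n : ℚ) * h ^ 2 < (2 * h - 1) * (F + n) := by nlinarith
  have h7 : ((2 * h - 1 : ℕ) : ℚ) = 2 * (h : ℚ) - 1 := by
    rw [Nat.cast_sub (by omega)]
    push_cast; ring
  have h8 : ((n * h ^ 2 : ℕ) : ℚ) < (((2 * h - 1) * (F + n) : ℕ) : ℚ) := by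
    rw [Nat.cast_mul, Nat.cast_mul, h7]
    push_cast
    exact h6
  exact_mod_cast h8

end Cfsg.Agent.H18.Der
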