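import Cfsg.Agent.H18_Der2

set_option autoImplicit false
set_option linter.all false

/-! Doubly transitive groups: reduction to the case that all orbits of a two-point stabilizer outside its line have length two. -/

open MulAction Finset
open scoped Classical

namespace Cfsg.Agent.H18.Der

universe u v

variable {G : Type u} {Ω : Type v} [Group G] [Fintype G] [MulAction G Ω] [Fintype Ω]

theorem fail_bound {a b : Ω} (hn : 2 ≤ Fintype.card Ω) (hh : 2 ≤ Nat.card (St G a b)) (c : ℕ) (hc : ∀ x ∈ Hs G a b, c * fx Ω x ≤ Fintype.card Ω - 1)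
    (hf : P Ω (wt (G := G) Ω) a b < Nat.card (St G a b)) :
    c * Fintype.card Ω * (Nat.card (St G a b) - 1) < (2 * Nat.card (St G a b) - 1) * (Fintype.card Ω - 1) := by
  obtain ⟨h, hhd⟩ : ∃ h, h = Nat.card (St G a b) := ⟨_, rfl⟩
  obtain ⟨n, hnd⟩ : ∃ n, n = Fintype.card Ω := ⟨_, rfl⟩
  rw [P_wt, card_Hs, ← hhd, ← hnd] at hf
  rw [← hhd, ← hnd]
  rw [← hhd] at hh
  rw [← hnd] at hn hc
  have hcard := card_Hs (G := G) a b
  rw [← hhd] at hcard
  obtain ⟨h', rfl⟩ : ∃ h', h = h' + 1 := ⟨h - 1, by omega⟩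
  obtain ⟨n', rfl⟩ : ∃ n', n = n' + 1 := ⟨n - 1, by omega⟩
  have hn' : (0 : ℚ) < n' := by exact_mod_cast (by omega : 0 < n')
  have h1 : ∑ x ∈ Hs G a b, ((n' + 1 : ℕ) : ℚ) / fx Ω x ≥ ∑ x ∈ Hs G a b, ((c : ℚ) * (n' + 1) / n') := by
    apply sum_le_sum
    intro x hx
    have h2 : (0 : ℚ) < fx Ω x := by exact_mod_cast fx_pos_of_mem hx
    have h3 : (c : ℚ) * fx Ω x ≤ n' := by exact_mod_cast hc x hx
    rw [div_le_div_iff₀ hn' h2]
    push_cast
    nlinarith
  rw [sum_const, hcard, nsmul_eq_mul, Nat.add_sub_cancel] at h1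
  rw [Nat.add_sub_cancel] at hf
  have h4 : (h' : ℚ) * (c * (n' + 1) / n') < 2 * h' + 1 := by
    push_cast at hf h1 ⊢
    linarith
  rw [← mul_div_assoc, div_lt_iff₀ hn'] at h4
  have h5 : c * (n' + 1) * h' < (2 * h' + 1) * n' := by
    have : ((c * (n' + 1) * h' : ℕ) : ℚ) < (((2 * h' + 1) * n' : ℕ) : ℚ) := by
      push_cast
      linarith
    exact_mod_cast this
  have h6 : 2 * (h' + 1) - 1 = 2 * h' + 1 := by omega
  rw [h6, Nat.add_sub_cancel, Nat.add_sub_cancel]
  exact h5

/-- excess of the orbits -/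
noncomputable def ee (G : Type u) [Group G] [Fintype G] [MulAction G Ω] (a b : Ω) : ℕ :=
  ∑ ω ∈ univ.filter (fun ω => ω ∉ ln G a b), (Nat.card (St G a b) - 2 * tt G a b ω)

theorem fail_E {a b : Ω} (hh : 2 ≤ Nat.card (St G a b)) (hf : P Ω (wt (G := G) Ω) a b < Nat.card (St G a b)) :
    Fintype.card Ω * Nat.card (St G a b) + (2 * Nat.card (St G a b) - 1) * ee G a b <
      (2 * Nat.card (St G a b) - 1) * ((ln G a b).card * Nat.card (St G a b)) := by
  have h1 := fail_ineq hh hf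
  have h2 : ∑ ω ∈ univ.filter (fun ω => ω ∉ ln G a b), (2 * tt G a b ω) + ee G a b =
      (univ.filter (fun ω => ω ∉ ln G a b)).card * Nat.card (St G a b) := by
    rw [ee, ← sum_add_distrib]
    have : ∀ ω ∈ univ.filter (fun ω => ω ∉ ln G a b), 2 * tt G a b ω + (Nat.card (St G a b) - 2 * tt G a b ω) = Nat.card (St G a b) := by
      intro ω hω
      rw [mem_filter] at hω
      have := two_tt_le hω.2
      omega
    rw [sum_congr rfl this, sum_const, smul_eq_mul]
  have h3 : ∑ ω ∈ univ.filter (fun ω => ω ∈ ln G a b), tt G a b ω = (ln G a b).card * Nat.card (St G a b) := by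
    have : ∀ ω ∈ univ.filter (fun ω => ω ∈ ln G a b), tt G a b ω = Nat.card (St G a b) := by
      intro ω hω
      rw [mem_filter] at hω
      exact tt_eq_iff.2 hω.2
    rw [sum_congr rfl this, sum_const, smul_eq_mul]
    congr 2
    ext ω; simp
  have h4 : (ln G a b).card + (univ.filter (fun ω => ω ∉ ln G a b)).card = Fintype.card Ω := by
    rw [← Finset.card_univ, ← card_filter_add_card_filter_not (s := univ) (fun ω => ω ∈ ln G a b)]
    congr 2
    ext ω; simp
  rw [← sum_filter_add_sum_filter_not univ (fun ω => ω ∈ ln G a b), h3] at h1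
  rw [← mul_sum] at h2
  rw [← h4] at h1 ⊢
  generalize ∑ ω ∈ univ.filter (fun ω => ω ∉ ln G a b), tt G a b ω = A at *
  generalize ee G a b = E at *
  generalize (ln G a b).card = φ at *
  generalize (univ.filter (fun ω => ω ∉ ln G a b)).card = m at *
  generalize Nat.card (St G a b) = H at hh h1 h2 ⊢
  obtain ⟨h, rfl⟩ : ∃ h, H = h + 1 := ⟨H - 1, by omega⟩
  have h5 : 2 * (h + 1) - 1 = 2 * h + 1 := by omega
  rw [h5] at h1 ⊢
  have e := congrArg (fun t => (2 * h + 1) * t) h2
  nlinarith [h1, e]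

/-- the orbit of the two-point stabilizer -/
noncomputable def ob (G : Type u) [Group G] [Fintype G] [MulAction G Ω] (a b ω : Ω) : Finset Ω :=
  univ.filter (fun ω' => ∃ x ∈ St G a b, x • ω = ω')

theorem mem_ob {a b ω ω' : Ω} : ω' ∈ ob G a b ω ↔ ∃ x ∈ St G a b, x • ω = ω' := by
  rw [ob, mem_filter]; simp

theorem self_mem_ob (a b ω : Ω) : ω ∈ ob G a b ω := mem_ob.2 ⟨1, one_mem _, one_smul _ _⟩

theorem card_ob (a b ω : Ω) : (ob G a b ω).card * tt G a b ω = Nat.card (St G a b) := by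
  have h1 := MulAction.card_orbit_mul_card_stabilizer_eq_card_group (St G a b) ω
  rw [Nat.card_eq_fintype_card, ← h1]
  congr 1
  · rw [← Fintype.card_coe]
    apply Fintype.card_congr
    apply Equiv.subtypeEquivRight
    intro ω'
    rw [mem_ob]
    constructor
    · rintro ⟨x, hx, rfl⟩
      exact ⟨⟨x, hx⟩, rfl⟩
    · rintro ⟨x, rfl⟩
      exact ⟨x.1, x.2, rfl⟩
  · rw [tt, Nat.card_eq_fintype_card]
    apply Fintype.card_congr
    refine ⟨fun x => ⟨⟨x.1, x.2.1⟩, x.2.2⟩, fun x => ⟨x.1.1, x.1.2, x.2⟩, fun _ => rfl, fun _ => rfl⟩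

theorem tt_ob {a b ω ω' : Ω} (h : ω' ∈ ob G a b ω) : tt G a b ω' = tt G a b ω := by
  obtain ⟨x, hx, rfl⟩ := mem_ob.1 h
  have h1 : (ob G a b (x • ω)) = ob G a b ω := by
    ext ν
    rw [mem_ob, mem_ob]
    constructor
    · rintro ⟨y, hy, rfl⟩
      exact ⟨y * x, mul_mem hy hx, mul_smul _ _ _⟩
    · rintro ⟨y, hy, rfl⟩
      exact ⟨y * x⁻¹, mul_mem hy (inv_mem hx), by rw [← mul_smul, inv_mul_cancel_right]⟩
  have h2 := card_ob (G := G) a b ω
  have h3 := card_ob (G := G) a b (x • ω)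
  rw [h1, ← h2] at h3
  exact Nat.eq_of_mul_eq_mul_left (card_pos.2 ⟨ω, self_mem_ob a b ω⟩) h3

theorem ob_not_ln {a b ω ω' : Ω} (h : ω' ∈ ob G a b ω) (hω : ω ∉ ln G a b) : ω' ∉ ln G a b := by
  rw [← tt_eq_iff, tt_ob h, tt_eq_iff]
  exact hω

theorem ob_disjoint {a b ω ω' : Ω} (h : ω' ∉ ob G a b ω) : Disjoint (ob G a b ω) (ob G a b ω') := by
  rw [disjoint_left]
  intro ν hν hν'
  apply h
  obtain ⟨x, hx, h1⟩ := mem_ob.1 hν
  obtain ⟨y, hy, h2⟩ := mem_ob.1 hν'
  exact mem_ob.2 ⟨y⁻¹ * x, mul_mem (inv_mem hy) hx, by rw [mul_smul, h1, ← h2, inv_smul_smul]⟩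

theorem sum_ob {a b ω : Ω} (hω : ω ∉ ln G a b) :
    ∑ ω' ∈ ob G a b ω, (Nat.card (St G a b) - 2 * tt G a b ω') + 2 * Nat.card (St G a b) = (ob G a b ω).card * Nat.card (St G a b) := by
  have h1 : ∀ ω' ∈ ob G a b ω, Nat.card (St G a b) - 2 * tt G a b ω' = Nat.card (St G a b) - 2 * tt G a b ω := fun ω' h => by rw [tt_ob h]
  rw [sum_congr rfl h1, sum_const, smul_eq_mul]
  have h2 := card_ob (G := G) a b ω
  have h3 := two_tt_le hω
  have h4 : (ob G a b ω).card * (Nat.card (St G a b) - 2 * tt G a b ω) + (ob G a b ω).card * (2 * tt G a b ω) = (ob G a b ω).card * Nat.card (St G a b) := by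
    rw [← mul_add, Nat.sub_add_cancel h3]
  rw [← h4]
  congr 1
  rw [← h2]; ring

theorem ob_subset {a b ω : Ω} (hω : ω ∉ ln G a b) : ob G a b ω ⊆ univ.filter (fun ω => ω ∉ ln G a b) := by
  intro ω' h
  rw [mem_filter]
  exact ⟨mem_univ _, ob_not_ln h hω⟩

theorem card_ob_le {a b ω : Ω} (hE : ee G a b < 2 * Nat.card (St G a b)) (hω : ω ∉ ln G a b) : (ob G a b ω).card ≤ 3 := by
  have h1 := sum_ob hω
  have h2 : ∑ ω' ∈ ob G a b ω, (Nat.card (St G a b) - 2 * tt G a b ω') ≤ ee G a b := sum_le_sum_of_subset (ob_subset hω)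
  by_contra h
  have h3 : 4 * Nat.card (St G a b) ≤ (ob G a b ω).card * Nat.card (St G a b) := Nat.mul_le_mul_right _ (by omega)
  omega

theorem exists_three [FaithfulSMul G Ω] {a b ω : Ω} (hE : ee G a b < 2 * Nat.card (St G a b)) (hω : ω ∉ ln G a b) (h : 2 * tt G a b ω ≠ Nat.card (St G a b)) :
    ∃ (z : G) (c : Ω), z ^ 3 = 1 ∧ z • c ≠ c ∧ ∀ ν : Ω, z • ν ≠ ν → ν = c ∨ ν = z • c ∨ ν = z • z • c := by
  have h1 := card_ob (G := G) a b ω
  have h2 := card_ob_le hE hω
  have h3 := two_tt_le hω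
  have h4 := tt_pos (G := G) a b ω
  have h5 : (ob G a b ω).card = 3 := by
    have : 3 ≤ (ob G a b ω).card := by
      by_contra hc
      have : (ob G a b ω).card * tt G a b ω ≤ 2 * tt G a b ω := Nat.mul_le_mul_right _ (by omega)
      omega
    omega
  have h6 := sum_ob hω
  -- all other orbits have length at most two
  have h7 : ∀ ν, ν ∉ ob G a b ω → ν ∉ ln G a b → 2 * tt G a b ν = Nat.card (St G a b) := by
    intro ν hν hνl
    by_contra hc
    have h8 := sum_ob hνl
    have h9 := card_ob (G := G) a b ν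
    have h10 := two_tt_le hνl
    have h11 := tt_pos (G := G) a b ν
    have h12 : 3 ≤ (ob G a b ν).card := by
      by_contra hc'
      have : (ob G a b ν).card * tt G a b ν ≤ 2 * tt G a b ν := Nat.mul_le_mul_right _ (by omega)
      omega
    have h13 : ∑ ω' ∈ ob G a b ω ∪ ob G a b ν, (Nat.card (St G a b) - 2 * tt G a b ω') ≤ ee G a b :=
      sum_le_sum_of_subset (union_subset (ob_subset hω) (ob_subset hνl))
    rw [sum_union (ob_disjoint hν)] at h13
    have h14 : 3 * Nat.card (St G a b) ≤ (ob G a b ν).card * Nat.card (St G a b) := Nat.mul_le_mul_right _ h12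
    rw [h5] at h6
    omega
  -- an element of order three
  have h8 : 3 ∣ Nat.card (St G a b) := by rw [← h1, h5]; exact dvd_mul_right _ _
  haveI : Fact (Nat.Prime 3) := ⟨Nat.prime_three⟩
  obtain ⟨z, hz⟩ := exists_prime_orderOf_dvd_card' 3 h8
  have hz3 : z.1 ^ 3 = 1 := by
    have := pow_orderOf_eq_one z
    rw [hz] at this
    exact congrArg Subtype.val this
  have hfix : ∀ ν, ν ∉ ob G a b ω → z.1 • ν = ν := by
    intro ν hν
    by_cases hνl : ν ∈ ln G a b
    · exact mem_ln.1 hνl _ z.2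
    · have h9 := h7 ν hν hνl
      have h10 := card_ob (G := G) a b ν
      have h11 := tt_pos (G := G) a b ν
      have h12 : (ob G a b ν).card = 2 := by
        rw [← h9] at h10
        exact Nat.eq_of_mul_eq_mul_right h11 h10
      obtain ⟨u, w, huw, hob⟩ := card_eq_two.1 h12
      -- ν, zν, zzν in a set of size two
      have m0 : ν ∈ ob G a b ν := self_mem_ob a b ν
      have m1 : z.1 • ν ∈ ob G a b ν := mem_ob.2 ⟨z.1, z.2, rfl⟩
      have m2 : z.1 • z.1 • ν ∈ ob G a b ν := mem_ob.2 ⟨z.1 * z.1, mul_mem z.2 z.2, mul_smul _ _ _⟩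
      have hz3' : z.1 • z.1 • z.1 • ν = ν := by
        rw [← mul_smul, ← mul_smul, ← pow_three', hz3, one_smul]
      by_contra hne
      have e1 : z.1 • z.1 • ν ≠ z.1 • ν := fun h => hne (smul_left_cancel z.1 h)
      have e2 : z.1 • z.1 • ν ≠ ν := by
        intro h
        rw [h] at hz3'
        exact hne hz3'
      rw [hob, mem_insert, mem_singleton] at m0 m1 m2
      rcases m0 with m0 | m0 <;> rcases m1 with m1 | m1 <;> rcases m2 with m2 | m2
      · exact e2 (m2.trans m0.symm)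
      · exact hne (m1.trans m0.symm)
      · exact e2 (m2.trans m0.symm)
      · exact e1 (m2.trans m1.symm)
      · exact e1 (m2.trans m1.symm)
      · exact e2 (m2.trans m0.symm)
      · exact hne (m1.trans m0.symm)
      · exact hne (m1.trans m0.symm)
  by_cases hall : ∀ ν ∈ ob G a b ω, z.1 • ν = ν
  · exfalso
    have h9 : z.1 = 1 := FaithfulSMul.eq_of_smul_eq_smul (α := Ω) fun ν => by
      rw [one_smul]
      by_cases hν : ν ∈ ob G a b ω
      · exact hall ν hν
      · exact hfix ν hν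
    have h10 : z = 1 := Subtype.ext h9
    rw [h10, orderOf_one] at hz
    omega
  · push Not at hall
    obtain ⟨c, hc, hcz⟩ := hall
    refine ⟨z.1, c, hz3, hcz, ?_⟩
    intro ν hν
    have hνo : ν ∈ ob G a b ω := by
      by_contra h'
      exact hν (hfix ν h')
    have hz3' : z.1 • z.1 • z.1 • c = c := by
      rw [← mul_smul, ← mul_smul, ← pow_three', hz3, one_smul]
    have e1 : z.1 • z.1 • c ≠ z.1 • c := fun h => hcz (smul_left_cancel z.1 h)
    have e2 : z.1 • z.1 • c ≠ c := by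
      intro h
      rw [h] at hz3'
      exact hcz hz3'
    have hmem : ∀ y ∈ St G a b, y • c ∈ ob G a b ω := by
      intro y hy
      obtain ⟨x, hx, rfl⟩ := mem_ob.1 hc
      exact mem_ob.2 ⟨y * x, mul_mem hy hx, mul_smul _ _ _⟩
    have hsub : ({c, z.1 • c, z.1 • z.1 • c} : Finset Ω) ⊆ ob G a b ω := by
      intro μ hμ
      rw [mem_insert, mem_insert, mem_singleton] at hμ
      rcases hμ with rfl | rfl | rfl
      · exact hc
      · exact hmem _ z.2
      · rw [← mul_smul]; exact hmem _ (mul_mem z.2 z.2)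
    have heq : ({c, z.1 • c, z.1 • z.1 • c} : Finset Ω) = ob G a b ω := by
      apply eq_of_subset_of_card_le hsub
      rw [h5, card_eq_three.2 ⟨_, _, _, hcz.symm, e2.symm, e1.symm, rfl⟩]
    rw [← heq, mem_insert, mem_insert, mem_singleton] at hνo
    exact hνo

/-- all orbits outside the line have length two -/
theorem E_zero [FaithfulSMul G Ω] (h2 : T2 G Ω) (hn : 7 ≤ Fintype.card Ω) (hE : ∀ a b : Ω, a ≠ b → ee G a b < 2 * Nat.card (St G a b))
    {a b : Ω} (hab : a ≠ b) : ∀ ω, ω ∉ ln G a b → 2 * tt G a b ω = Nat.card (St G a b) := by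
  intro ω hω
  by_contra hne
  obtain ⟨z, c, hz3, hzc, hz⟩ := exists_three (hE a b hab) hω hne
  have hz3' : z • z • z • c = c := by
    rw [← mul_smul, ← mul_smul, ← pow_three', hz3, one_smul]
  have e1 : z • z • c ≠ z • c := fun h => hzc (smul_left_cancel z h)
  have e2 : z • z • c ≠ c := by
    intro h
    rw [h] at hz3'
    exact hzc hz3'
  obtain ⟨d, -, hd⟩ : ∃ d ∈ (univ : Finset Ω), d ∉ ({c, z • c, z • z • c} : Finset Ω) := by
    apply exists_mem_notMem_of_card_lt_card
    rw [Finset.card_univ]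
    exact lt_of_le_of_lt card_le_three (by omega)
  simp only [mem_insert, mem_singleton, not_or] at hd
  obtain ⟨g, hg1, hg2⟩ := h2 c (z • c) c d hzc.symm (fun h => hd.1 h.symm)
  have hgi : g⁻¹ • c = c := by rw [inv_smul_eq_iff]; exact hg1.symm
  have hz' : (g * z * g⁻¹) • c = d := by rw [mul_smul, mul_smul, hgi, hg2]
  have hz'm : ∀ ν : Ω, (g * z * g⁻¹) • ν ≠ ν → ν = c ∨ ν = d ∨ ν = g • z • z • c := by
    intro ν hν
    have h1 : z • g⁻¹ • ν ≠ g⁻¹ • ν := by
      intro h
      apply hν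
      rw [mul_smul, mul_smul, h, smul_inv_smul]
    rcases hz _ h1 with h | h | h
    · left; rw [inv_smul_eq_iff] at h; rw [h, hg1]
    · right; left; rw [inv_smul_eq_iff] at h; rw [h, hg2]
    · right; right; rw [inv_smul_eq_iff] at h; exact h
  obtain ⟨q, -, hq⟩ : ∃ q ∈ (univ : Finset Ω), q ∉ ({c, z • c, z • z • c, d, g • z • z • c} : Finset Ω) := by
    apply exists_mem_notMem_of_card_lt_card
    rw [Finset.card_univ]
    exact lt_of_le_of_lt card_le_five (by omega)
  obtain ⟨r, -, hr⟩ : ∃ r ∈ (univ : Finset Ω), r ∉ ({q, c, z • c, z • z • c, d, g • z • z • c} : Finset Ω) := by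
    apply exists_mem_notMem_of_card_lt_card
    rw [Finset.card_univ]
    exact lt_of_le_of_lt card_le_six (by omega)
  simp only [mem_insert, mem_singleton, not_or] at hq hr
  have hqr : q ≠ r := fun h => hr.1 h.symm
  have hzm : z ∈ St G q r := by
    rw [mem_St]
    constructor
    · by_contra h
      rcases hz _ h with h | h | h
      · exact hq.1 h
      · exact hq.2.1 h
      · exact hq.2.2.1 h
    · by_contra h
      rcases hz _ h with h | h | h
      · exact hr.2.1 h
      · exact hr.2.2.1 h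
      · exact hr.2.2.2.1 h
  have hzm' : g * z * g⁻¹ ∈ St G q r := by
    rw [mem_St]
    constructor
    · by_contra h
      rcases hz'm _ h with h | h | h
      · exact hq.1 h
      · exact hq.2.2.2.1 h
      · exact hq.2.2.2.2 h
    · by_contra h
      rcases hz'm _ h with h | h | h
      · exact hr.2.1 h
      · exact hr.2.2.2.2.1 h
      · exact hr.2.2.2.2.2 h
  have hcl : c ∉ ln G q r := fun h => hzc (mem_ln.1 h z hzm)
  have h3 := card_ob_le (hE q r hqr) hcl
  have h4 : ({c, z • c, z • z • c, d} : Finset Ω) ⊆ ob G q r c := by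
    intro μ hμ
    simp only [mem_insert, mem_singleton] at hμ
    rcases hμ with rfl | rfl | rfl | rfl
    · exact self_mem_ob _ _ _
    · exact mem_ob.2 ⟨z, hzm, rfl⟩
    · exact mem_ob.2 ⟨z * z, mul_mem hzm hzm, mul_smul _ _ _⟩
    · exact mem_ob.2 ⟨_, hzm', hz'⟩
  have h5 : ({c, z • c, z • z • c, d} : Finset Ω).card = 4 := by
    rw [card_insert_of_notMem, card_insert_of_notMem, card_insert_of_notMem, card_singleton]
    · simp only [mem_singleton]; exact fun h => hd.2.2 h.symm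
    · simp only [mem_insert, mem_singleton, not_or]; exact ⟨e1.symm, fun h => hd.2.1 h.symm⟩
    · simp only [mem_insert, mem_singleton, not_or]; exact ⟨hzc.symm, e2.symm, fun h => hd.1 h.symm⟩
  have h6 := card_le_card h4
  omega

end Cfsg.Agent.H18.Der
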