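import Cfsg.Agent.H18_Der3

set_option autoImplicit false
set_option linter.all false

/-! Doubly transitive groups in which all orbits of a two-point stabilizer outside its line have length two. -/

open MulAction Finset
open scoped Classical

namespace Cfsg.Agent.H18.Der

universe u v

variable {G : Type u} {Ω : Type v} [Group G] [Fintype G] [MulAction G Ω] [Fintype Ω]

theorem card_ob_two {a b ω : Ω} (h : 2 * tt G a b ω = Nat.card (St G a b)) : (ob G a b ω).card = 2 := by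
  have h1 := card_ob (G := G) a b ω
  rw [← h] at h1
  exact Nat.eq_of_mul_eq_mul_right (tt_pos a b ω) h1

/-- two elements of the two-point stabilizer moving a point move it to the same point -/
theorem moved_eq {a b ω : Ω} (h : ω ∉ ln G a b → 2 * tt G a b ω = Nat.card (St G a b)) {x y : G} (hx : x ∈ St G a b) (hy : y ∈ St G a b)
    (hxω : x • ω ≠ ω) (hyω : y • ω ≠ ω) : x • ω = y • ω := by
  have hω : ω ∉ ln G a b := fun h' => hxω (mem_ln.1 h' x hx)
  by_contra hne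
  have h1 : ({ω, x • ω, y • ω} : Finset Ω) ⊆ ob G a b ω := by
    intro μ hμ
    simp only [mem_insert, mem_singleton] at hμ
    rcases hμ with rfl | rfl | rfl
    · exact self_mem_ob _ _ _
    · exact mem_ob.2 ⟨x, hx, rfl⟩
    · exact mem_ob.2 ⟨y, hy, rfl⟩
  have h2 := card_le_card h1
  rw [card_ob_two (h hω), card_eq_three.2 ⟨_, _, _, hxω.symm, hyω.symm, hne, rfl⟩] at h2
  omega

theorem sq_eq_one [FaithfulSMul G Ω] {a b : Ω} (h : ∀ ω, ω ∉ ln G a b → 2 * tt G a b ω = Nat.card (St G a b)) {x : G} (hx : x ∈ St G a b) :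
    x * x = 1 := by
  apply FaithfulSMul.eq_of_smul_eq_smul (α := Ω)
  intro ω
  rw [one_smul]
  by_cases h1 : x • ω = ω
  · rw [mul_smul, h1, h1]
  · by_contra h2
    have h3 := moved_eq (h ω) hx (mul_mem hx hx) h1 h2
    rw [mul_smul, smul_left_cancel_iff] at h3
    exact h1 h3.symm

theorem St_comm_mul [FaithfulSMul G Ω] {a b : Ω} (h : ∀ ω, ω ∉ ln G a b → 2 * tt G a b ω = Nat.card (St G a b)) {x y : G}
    (hx : x ∈ St G a b) (hy : y ∈ St G a b) : x * y = y * x := by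
  have h1 := sq_eq_one h hx
  have h2 := sq_eq_one h hy
  have h3 := sq_eq_one h (mul_mem hx hy)
  have h4 : x⁻¹ = x := inv_eq_of_mul_eq_one_left h1
  have h5 : y⁻¹ = y := inv_eq_of_mul_eq_one_left h2
  have h6 : (x * y)⁻¹ = x * y := inv_eq_of_mul_eq_one_left h3
  rw [mul_inv_rev, h4, h5] at h6
  exact h6.symm

/-- the case of lines with two points -/
theorem case_two [FaithfulSMul G Ω] (h2 : T2 G Ω) (hn : 7 ≤ Fintype.card Ω)
    (hE : ∀ a b : Ω, a ≠ b → ∀ ω, ω ∉ ln G a b → 2 * tt G a b ω = Nat.card (St G a b)) {α β : Ω} (hαβ : α ≠ β)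
    (hl : (ln G α β).card = 2) (hh : 2 < Nat.card (St G α β)) : False := by
  have hE' := hE α β hαβ
  have hmem : ∀ ω, ω ∈ ln G α β → ω = α ∨ ω = β := by
    intro ω hω
    have h1 : ({α, β} : Finset Ω) = ln G α β := by
      apply eq_of_subset_of_card_le
      · intro μ hμ
        rw [mem_insert, mem_singleton] at hμ
        rcases hμ with rfl | rfl
        · exact left_mem_ln _ _
        · exact right_mem_ln _ _
      · rw [hl, card_pair hαβ]
    rw [← h1, mem_insert, mem_singleton] at hω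
    exact hω
  haveI : Fact (Nat.Prime 2) := ⟨Nat.prime_two⟩
  have hp : IsPGroup 2 (St G α β) := by
    intro x
    exact ⟨1, Subtype.ext (by show x.1 ^ 2 ^ 1 = 1; rw [pow_one, sq]; exact sq_eq_one hE' x.2)⟩
  -- parity
  have hpar : Fintype.card Ω % 2 = 0 := by
    have h1 := hp.card_modEq_card_fixedPoints Ω
    have h3 : Nat.card (fixedPoints (St G α β) Ω) = 2 := by
      rw [← hl, Nat.card_eq_fintype_card, ← Fintype.card_coe]
      apply Fintype.card_congr
      apply Equiv.subtypeEquivRight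
      intro ω
      rw [mem_ln, mem_fixedPoints]
      exact ⟨fun h g hg => h ⟨g, hg⟩, fun h g => h g.1 g.2⟩
    rw [h3, Nat.card_eq_fintype_card] at h1
    exact h1
  -- the one-point stabilizer
  obtain ⟨X, hX⟩ : ∃ X : Subgroup G, X = stabilizer G α := ⟨_, rfl⟩
  have hXm : ∀ g, g ∈ X ↔ g • α = α := fun g => by rw [hX, mem_stabilizer_iff]
  have htr : ∀ ω : Ω, ω ≠ α → ∃ g ∈ X, g • β = ω := by
    intro ω hω
    obtain ⟨g, h1, h3⟩ := h2 α β α ω hαβ hω.symm
    exact ⟨g, (hXm g).2 h1, h3⟩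
  have hSX : St G α β ≤ X := fun g hg => (hXm g).2 (mem_St.1 hg).1
  have hidx : ¬ 2 ∣ ((St G α β).subgroupOf X).index := by
    have h1 : ((St G α β).subgroupOf X).index = Fintype.card Ω - 1 := by
      have h3 : (St G α β).subgroupOf X = stabilizer X β := by
        ext g
        rw [Subgroup.mem_subgroupOf, mem_St, mem_stabilizer_iff]
        exact ⟨fun h => h.2, fun h => ⟨(hXm g.1).1 g.2, h⟩⟩
      have h4 : orbit X β = {ω | ω ≠ α} := by
        ext ω
        constructor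
        · rintro ⟨g, rfl⟩ h
          have h5 : g.1 • β = α := h
          have h6 : g.1 • α = α := (hXm g.1).1 g.2
          exact hαβ (smul_left_cancel g.1 (h6.trans h5.symm))
        · intro h
          obtain ⟨g, hg, rfl⟩ := htr ω h
          exact ⟨⟨g, hg⟩, rfl⟩
      rw [h3, index_stabilizer, h4]
      have h5 : {ω : Ω | ω ≠ α} = ((univ.erase α : Finset Ω) : Set Ω) := by
        ext ω; simp
      rw [h5, Set.ncard_coe_finset, card_erase_of_mem (mem_univ _), Finset.card_univ]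
    rw [h1]
    omega
  have hp' : IsPGroup 2 ((St G α β).subgroupOf X) := hp.comap_of_injective X.subtype X.subtype_injective
  obtain ⟨Q, hQ⟩ : ∃ Q : Sylow 2 X, (Q : Subgroup X) = (St G α β).subgroupOf X := ⟨hp'.toSylow hidx, rfl⟩
  have hnc : Subgroup.normalizer ((Q : Subgroup X) : Set X) ≤ Subgroup.centralizer ((Q : Subgroup X) : Set X) := by
    intro g hg
    have h1 : g.1 • β ∈ ln G α β := by
      rw [mem_ln]
      intro y hy
      have h3 : (⟨y, hSX hy⟩ : X) ∈ (Q : Subgroup X) := by rw [hQ]; exact hy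
      have h4 := (Subgroup.mem_normalizer_iff.1 ((Subgroup.normalizer ((Q : Subgroup X) : Set X)).inv_mem hg) _).1 h3
      rw [hQ, Subgroup.mem_subgroupOf, mem_St] at h4
      have h5 : (g.1⁻¹ * y * g.1⁻¹⁻¹) • β = β := h4.2
      rw [inv_inv, mul_smul, mul_smul, inv_smul_eq_iff] at h5
      exact h5
    have h3 : g.1 • β = β := by
      rcases hmem _ h1 with h | h
      · exact absurd (smul_left_cancel g.1 (((hXm g.1).1 g.2).trans h.symm)) hαβ
      · exact h
    have h4 : g.1 ∈ St G α β := mem_St.2 ⟨(hXm g.1).1 g.2, h3⟩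
    rw [Subgroup.mem_centralizer_iff]
    intro y hy
    rw [SetLike.mem_coe, hQ, Subgroup.mem_subgroupOf] at hy
    exact Subtype.ext (St_comm_mul hE' hy h4)
  have hcomp := MonoidHom.ker_transferSylow_isComplement' Q hnc
  obtain ⟨N, hN⟩ : ∃ N, N = (MonoidHom.transferSylow Q hnc).ker := ⟨_, rfl⟩
  have hNn : N.Normal := by rw [hN]; infer_instance
  rw [← hN] at hcomp
  -- N is regular outside α
  have hNinj : ∀ c ∈ N, ∀ d ∈ N, c.1 • β = d.1 • β → c = d := by
    intro c hc d hd h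
    have h1 : d⁻¹ * c ∈ (Q : Subgroup X) := by
      rw [hQ, Subgroup.mem_subgroupOf, mem_St]
      refine ⟨(hXm _).1 (d⁻¹ * c).2, ?_⟩
      show (d.1⁻¹ * c.1) • β = β
      rw [mul_smul, h, inv_smul_smul]
    have h3 : d⁻¹ * c ∈ N := mul_mem (inv_mem hd) hc
    have h4 : d⁻¹ * c ∈ (⊥ : Subgroup X) := by
      rw [← hcomp.disjoint.eq_bot]
      exact ⟨h3, h1⟩
    rw [Subgroup.mem_bot, inv_mul_eq_one] at h4
    exact h4.symm
  have hNsurj : ∀ ω : Ω, ω ≠ α → ∃ c ∈ N, c.1 • β = ω := by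
    intro ω hω
    obtain ⟨g, hg, rfl⟩ := htr ω hω
    obtain ⟨⟨c, d⟩, hcd⟩ := hcomp.surjective ⟨g, hg⟩
    refine ⟨c.1, c.2, ?_⟩
    have h0 : ∀ w : X, w ∈ (Q : Subgroup X) → w.1 • β = β := by
      intro w hw
      rw [hQ, Subgroup.mem_subgroupOf, mem_St] at hw
      exact hw.2
    have h1 : d.1.1 • β = β := h0 d.1 d.2
    have h3 : g = c.1.1 * d.1.1 := (congrArg Subtype.val hcd).symm
    rw [h3, mul_smul, h1]
  have hPm : ∀ x ∈ St G α β, x • α = α ∧ x • β = β := fun x hx => mem_St.1 hx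
  -- conjugation versus the action
  have hconj : ∀ x (hx : x ∈ St G α β) (c : X), (⟨x, hSX hx⟩ * c * ⟨x, hSX hx⟩⁻¹ : X).1 • β = x • c.1 • β := by
    intro x hx c
    show (x * c.1 * x⁻¹) • β = _
    have h1 : x⁻¹ • β = β := by rw [inv_smul_eq_iff]; exact (hPm x hx).2.symm
    rw [mul_smul, mul_smul, h1]
  have hcomm : ∀ x (hx : x ∈ St G α β) (c : X), c ∈ N → (x • c.1 • β = c.1 • β ↔ (⟨x, hSX hx⟩ : X) * c * ⟨x, hSX hx⟩⁻¹ = c) := by
    intro x hx c hc
    rw [← hconj x hx c]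
    constructor
    · intro h
      exact hNinj _ (hNn.conj_mem c hc _) _ hc h
    · intro h
      rw [h]
  -- two points with different stabilizers
  obtain ⟨γ, -, hγ⟩ : ∃ γ ∈ (univ : Finset Ω), γ ∉ ({α, β} : Finset Ω) := by
    apply exists_mem_notMem_of_card_lt_card
    rw [Finset.card_univ, card_pair hαβ]
    omega
  simp only [mem_insert, mem_singleton, not_or] at hγ
  have hγl : γ ∉ ln G α β := fun h => (hmem γ h).elim hγ.1 hγ.2
  obtain ⟨x, hxK, hx1⟩ : ∃ x ∈ St G α β ⊓ stabilizer G γ, x ≠ 1 := by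
    have h1 := hE' γ hγl
    have h3 : 1 < Nat.card (St G α β ⊓ stabilizer G γ : Subgroup G) := by
      show 1 < tt G α β γ
      omega
    rw [Subgroup.one_lt_card_iff_ne_bot] at h3
    by_contra h
    push Not at h
    exact h3 ((Subgroup.eq_bot_iff_forall _).2 h)
  obtain ⟨hxS, hxγ⟩ := Subgroup.mem_inf.1 hxK
  rw [mem_stabilizer_iff] at hxγ
  obtain ⟨δ, hδ⟩ : ∃ δ : Ω, x • δ ≠ δ := by
    by_contra h
    push Not at h
    exact hx1 (FaithfulSMul.eq_of_smul_eq_smul (α := Ω) fun ω => by rw [h ω, one_smul])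
  have hδl : δ ∉ ln G α β := fun h => hδ (mem_ln.1 h x hxS)
  obtain ⟨y, hyK, hyγ⟩ : ∃ y ∈ St G α β ⊓ stabilizer G δ, y • γ ≠ γ := by
    by_contra h
    push Not at h
    have h1 : St G α β ⊓ stabilizer G δ ≤ St G α β ⊓ stabilizer G γ := fun y hy => ⟨hy.1, mem_stabilizer_iff.2 (h y hy)⟩
    have h3 : St G α β ⊓ stabilizer G δ = St G α β ⊓ stabilizer G γ := by
      apply Subgroup.eq_of_le_of_card_ge h1
      have h4 := hE' γ hγl
      have h5 := hE' δ hδl
      show tt G α β γ ≤ tt G α β δ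
      omega
    rw [← h3] at hxK
    exact hδ (mem_stabilizer_iff.1 hxK.2)
  obtain ⟨hyS, hyδ⟩ := Subgroup.mem_inf.1 hyK
  rw [mem_stabilizer_iff] at hyδ
  obtain ⟨c, hc, hcγ⟩ := hNsurj γ hγ.1
  obtain ⟨d, hd, hdδ⟩ := hNsurj δ (fun h => hδl (by rw [h]; exact left_mem_ln _ _))
  obtain ⟨x', hx'⟩ : ∃ x' : X, x' = ⟨x, hSX hxS⟩ := ⟨_, rfl⟩
  obtain ⟨y', hy'⟩ : ∃ y' : X, y' = ⟨y, hSX hyS⟩ := ⟨_, rfl⟩
  have hxc : x' * c * x'⁻¹ = c := by
    rw [hx']; exact (hcomm x hxS c hc).1 (by rw [hcγ, hxγ])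
  have hyd : y' * d * y'⁻¹ = d := by
    rw [hy']; exact (hcomm y hyS d hd).1 (by rw [hdδ, hyδ])
  have hxd : x' * d * x'⁻¹ ≠ d := by
    intro h
    rw [hx'] at h
    have := (hcomm x hxS d hd).2 h
    rw [hdδ] at this
    exact hδ this
  have hyc : y' * c * y'⁻¹ ≠ c := by
    intro h
    rw [hy'] at h
    have := (hcomm y hyS c hc).2 h
    rw [hcγ] at this
    exact hyγ this
  -- the third point
  have hxz : x • (c * d).1 • β ≠ (c * d).1 • β := by
    intro h
    have h1 := (hcomm x hxS (c * d) (mul_mem hc hd)).1 h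
    rw [← hx'] at h1
    apply hxd
    have h3 : x' * (c * d) * x'⁻¹ = c * (x' * d * x'⁻¹) := by
      calc x' * (c * d) * x'⁻¹ = (x' * c * x'⁻¹) * (x' * d * x'⁻¹) := by group
        _ = _ := by rw [hxc]
    rw [h3] at h1
    exact mul_left_cancel h1
  have hyz : y • (c * d).1 • β ≠ (c * d).1 • β := by
    intro h
    have h1 := (hcomm y hyS (c * d) (mul_mem hc hd)).1 h
    rw [← hy'] at h1
    apply hyc
    have h3 : y' * (c * d) * y'⁻¹ = (y' * c * y'⁻¹) * d := by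
      calc y' * (c * d) * y'⁻¹ = (y' * c * y'⁻¹) * (y' * d * y'⁻¹) := by group
        _ = _ := by rw [hyd]
    rw [h3] at h1
    exact mul_right_cancel h1
  have hz := moved_eq (hE' _) hxS hyS hxz hyz
  rw [← hconj x hxS, ← hconj y hyS, ← hx', ← hy'] at hz
  have hz' := hNinj _ (hNn.conj_mem _ (mul_mem hc hd) _) _ (hNn.conj_mem _ (mul_mem hc hd) _) hz
  have hz2 : c * (x' * d * x'⁻¹) = (y' * c * y'⁻¹) * d := by
    calc c * (x' * d * x'⁻¹) = (x' * c * x'⁻¹) * (x' * d * x'⁻¹) := by rw [hxc]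
      _ = x' * (c * d) * x'⁻¹ := by group
      _ = y' * (c * d) * y'⁻¹ := hz'
      _ = (y' * c * y'⁻¹) * (y' * d * y'⁻¹) := by group
      _ = _ := by rw [hyd]
  obtain ⟨e, he⟩ : ∃ e, e = (y' * c * y'⁻¹)⁻¹ * c := ⟨_, rfl⟩
  have he2 : e = d * (x' * d * x'⁻¹)⁻¹ := by
    rw [he, inv_mul_eq_iff_eq_mul, ← mul_assoc, ← hz2]
    group
  have heN : e ∈ N := by rw [he]; exact mul_mem (inv_mem (hNn.conj_mem _ hc _)) hc
  -- e is centralized by the whole two-point stabilizer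
  have hcS : ∀ u ∈ St G α β, ∀ w ∈ St G α β, u * w = w * u := fun u hu w hw => St_comm_mul hE' hu hw
  have heK : ∀ u (hu : u ∈ St G α β), u • γ = γ → (⟨u, hSX hu⟩ : X) * e * ⟨u, hSX hu⟩⁻¹ = e := by
    intro u hu huγ
    obtain ⟨u', hu'⟩ : ∃ u' : X, u' = ⟨u, hSX hu⟩ := ⟨_, rfl⟩
    have h1 : u' * c * u'⁻¹ = c := by rw [hu']; exact (hcomm u hu c hc).1 (by rw [hcγ, huγ])
    have h3 : u' * y' = y' * u' := by rw [hu', hy']; exact Subtype.ext (hcS u hu y hyS)
    rw [← hu', he]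
    calc u' * ((y' * c * y'⁻¹)⁻¹ * c) * u'⁻¹ = ((u' * y') * c * (u' * y')⁻¹)⁻¹ * (u' * c * u'⁻¹) := by group
      _ = (y' * (u' * c * u'⁻¹) * y'⁻¹)⁻¹ * (u' * c * u'⁻¹) := by rw [h3]; group
      _ = _ := by rw [h1]
  have hey : y' * e * y'⁻¹ = e := by
    have h3 : y' * x' = x' * y' := by rw [hx', hy']; exact Subtype.ext (hcS y hyS x hxS)
    rw [he2]
    calc y' * (d * (x' * d * x'⁻¹)⁻¹) * y'⁻¹ = (y' * d * y'⁻¹) * ((y' * x') * d * (y' * x')⁻¹)⁻¹ := by group
      _ = (y' * d * y'⁻¹) * (x' * (y' * d * y'⁻¹) * x'⁻¹)⁻¹ := by rw [h3]; group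
      _ = _ := by rw [hyd]
  have heall : ∀ u (hu : u ∈ St G α β), (⟨u, hSX hu⟩ : X) * e * ⟨u, hSX hu⟩⁻¹ = e := by
    intro u hu
    by_cases huγ : u • γ = γ
    · exact heK u hu huγ
    · have h1 := moved_eq (hE' γ) hu hyS huγ hyγ
      have h3 : (y⁻¹ * u) • γ = γ := by rw [mul_smul, h1, inv_smul_smul]
      have h4 := heK (y⁻¹ * u) (mul_mem (inv_mem hyS) hu) h3
      have h5 : (⟨y⁻¹ * u, hSX (mul_mem (inv_mem hyS) hu)⟩ : X) = y'⁻¹ * ⟨u, hSX hu⟩ := by rw [hy']; rfl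
      rw [h5] at h4
      calc (⟨u, hSX hu⟩ : X) * e * ⟨u, hSX hu⟩⁻¹ = y' * (y'⁻¹ * ⟨u, hSX hu⟩ * e * (y'⁻¹ * ⟨u, hSX hu⟩)⁻¹) * y'⁻¹ := by group
        _ = e := by rw [h4, hey]
  have heβ : e.1 • β ∈ ln G α β := by
    rw [mem_ln]
    intro u hu
    exact (hcomm u hu e heN).2 (heall u hu)
  have heβ2 : e.1 • β = β := by
    rcases hmem _ heβ with h | h
    · exact absurd (smul_left_cancel e.1 (((hXm e.1).1 e.2).trans h.symm)) hαβ
    · exact h
  have he1 : e = 1 := hNinj e heN 1 (one_mem _) (by rw [heβ2]; exact (one_smul _ _).symm)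
  rw [he, inv_mul_eq_one] at he1
  exact hyc he1

end Cfsg.Agent.H18.Der
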