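import Cfsg.Agent.H18_Der4

set_option autoImplicit false
set_option linter.all false

/-! Doubly transitive groups on Steiner triple systems in which all orbits of a two-point stabilizer outside its line have length two. -/

open MulAction Finset
open scoped Classical Pointwise

namespace Cfsg.Agent.H18.Der

universe u v

variable {G : Type u} {Ω : Type v} [Group G] [Fintype G] [MulAction G Ω] [Fintype Ω]

theorem third {a b : Ω} (hab : a ≠ b) (h3 : (ln G a b).card = 3) : ∃ c, c ≠ a ∧ c ≠ b ∧ ∀ ω, ω ∈ ln G a b ↔ ω = a ∨ ω = b ∨ ω = c := by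
  obtain ⟨c, hc, hc'⟩ : ∃ c ∈ ln G a b, c ∉ ({a, b} : Finset Ω) := by
    apply exists_mem_notMem_of_card_lt_card
    rw [h3, card_pair hab]
    omega
  simp only [mem_insert, mem_singleton, not_or] at hc'
  refine ⟨c, hc'.1, hc'.2, ?_⟩
  have h1 : ({a, b, c} : Finset Ω) = ln G a b := by
    apply eq_of_subset_of_card_le
    · intro μ hμ
      simp only [mem_insert, mem_singleton] at hμ
      rcases hμ with rfl | rfl | rfl
      · exact left_mem_ln _ _
      · exact right_mem_ln _ _
      · exact hc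
    · rw [h3, card_eq_three.2 ⟨_, _, _, hab, Ne.symm hc'.1, Ne.symm hc'.2, rfl⟩]
  intro ω
  rw [← h1]
  simp only [mem_insert, mem_singleton]

variable (G) in
/-- stabilizer of a point and a line through it -/
noncomputable def Qs (a b : Ω) : Subgroup G := stabilizer G a ⊓ stabilizer G ((ln G a b : Finset Ω) : Set Ω)

theorem mem_Qs (h2 : T2 G Ω) {a b : Ω} (hab : a ≠ b) {g : G} : g ∈ Qs G a b ↔ g • a = a ∧ g • b ∈ ln G a b := by
  rw [Qs, Subgroup.mem_inf, mem_stabilizer_iff, mem_stabilizer_set]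
  constructor
  · rintro ⟨h1, h3⟩
    exact ⟨h1, (h3 b).2 (right_mem_ln a b)⟩
  · rintro ⟨h1, h3⟩
    refine ⟨h1, fun ω => ?_⟩
    have h4 : a ≠ g • b := fun h => hab (smul_left_cancel g (h1.trans h))
    have h5 := ln_eq_of_mem h2 hab (left_mem_ln a b) h3 h4
    rw [mem_coe, mem_coe, ← smul_mem_ln (x := g) (a := a) (b := b) (ω := ω), h1, h5]

theorem St_le_Qs (h2 : T2 G Ω) {a b : Ω} (hab : a ≠ b) : St G a b ≤ Qs G a b := by
  intro g hg
  rw [mem_Qs h2 hab]
  exact ⟨(mem_St.1 hg).1, by rw [(mem_St.1 hg).2]; exact right_mem_ln a b⟩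

theorem card_Qs (h2 : T2 G Ω) {a b : Ω} (hab : a ≠ b) (h3 : (ln G a b).card = 3) : Nat.card (Qs G a b) = 2 * Nat.card (St G a b) := by
  obtain ⟨c, hca, hcb, hc⟩ := third hab h3
  obtain ⟨t, ht1, ht2⟩ := h2 a b a c hab hca.symm
  have htQ : t ∈ Qs G a b := by
    rw [mem_Qs h2 hab, ht2]
    exact ⟨ht1, (hc c).2 (Or.inr (Or.inr rfl))⟩
  have h1 : ((St G a b).subgroupOf (Qs G a b)).index = 2 := by
    rw [Subgroup.index_eq_two_iff]
    refine ⟨⟨t, htQ⟩, ?_⟩
    rintro ⟨g, hg⟩
    have hg' := (mem_Qs h2 hab).1 hg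
    have hgc : ∀ ω, ω ∈ ln G a b → g • ω ∈ ln G a b := fun ω hω => ((mem_stabilizer_set.1 (Subgroup.mem_inf.1 hg).2) ω).2 hω
    have hcl : c ∈ ln G a b := (hc c).2 (Or.inr (Or.inr rfl))
    have e1 : ((⟨g, hg⟩ : Qs G a b) * ⟨t, htQ⟩ ∈ (St G a b).subgroupOf (Qs G a b)) ↔ g • c = b := by
      rw [Subgroup.mem_subgroupOf, mem_St]
      show (g * t) • a = a ∧ (g * t) • b = b ↔ _
      rw [mul_smul, mul_smul, ht1, ht2, hg'.1]
      simp
    have e2 : ((⟨g, hg⟩ : Qs G a b) ∈ (St G a b).subgroupOf (Qs G a b)) ↔ g • b = b := by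
      rw [Subgroup.mem_subgroupOf, mem_St]
      show g • a = a ∧ g • b = b ↔ _
      rw [hg'.1]
      simp
    rw [e1, e2]
    by_cases hgb : g • b = b
    · right
      refine ⟨hgb, fun h => hcb (smul_left_cancel g (h.trans hgb.symm))⟩
    · left
      refine ⟨?_, hgb⟩
      have h4 : g • b = c := by
        rcases (hc _).1 hg'.2 with h | h | h
        · exact absurd (smul_left_cancel g (hg'.1.trans h.symm)) hab
        · exact absurd h hgb
        · exact h
      rcases (hc _).1 (hgc c hcl) with h | h | h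
      · exact absurd (smul_left_cancel g (h.trans hg'.1.symm)) hca
      · exact h
      · exact absurd (smul_left_cancel g (h.trans h4.symm)) hcb
  have h5 := ((St G a b).subgroupOf (Qs G a b)).index_mul_card
  rw [h1, Nat.card_congr (Subgroup.subgroupOfEquivOfLe (St_le_Qs h2 hab)).toEquiv] at h5
  exact h5.symm

theorem Qs_eq (h2 : T2 G Ω) (hl : ∀ a b : Ω, a ≠ b → (ln G a b).card = 3) {a b c : Ω} (hab : a ≠ b) (hac : a ≠ c)
    (h : St G a b ≤ Qs G a c) : Qs G a c = Qs G a b := by
  have h1 : ((St G a b).subgroupOf (Qs G a c)).index = 2 := by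
    have h5 := ((St G a b).subgroupOf (Qs G a c)).index_mul_card
    rw [Nat.card_congr (Subgroup.subgroupOfEquivOfLe h).toEquiv, card_Qs h2 hac (hl a c hac), card_St_eq h2 hac hab] at h5
    exact Nat.eq_of_mul_eq_mul_right Nat.card_pos h5
  have h3 : ((St G a b).subgroupOf (Qs G a c)).Normal := Subgroup.normal_of_index_eq_two h1
  apply Subgroup.eq_of_le_of_card_ge
  · intro g hg
    rw [mem_Qs h2 hab]
    have hga : g • a = a := ((mem_Qs h2 hac).1 hg).1
    refine ⟨hga, ?_⟩
    rw [mem_ln]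
    intro y hy
    have h4 := h3.conj_mem ⟨y, h hy⟩ hy (⟨g, hg⟩ : Qs G a c)⁻¹
    rw [Subgroup.mem_subgroupOf, mem_St] at h4
    have h5 : (g⁻¹ * y * g⁻¹⁻¹) • b = b := h4.2
    rw [inv_inv, mul_smul, mul_smul, inv_smul_eq_iff] at h5
    exact h5
  · rw [card_Qs h2 hac (hl a c hac), card_Qs h2 hab (hl a b hab), card_St_eq h2 hac hab]

variable (G) in
/-- points with centre `e` -/
noncomputable def Cs (a b e : Ω) : Finset Ω := univ.filter (fun γ => γ ∉ ln G a b ∧ ∀ x ∈ St G a b, x • γ ∈ ln G e γ)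

theorem mem_Cs {a b e γ : Ω} : γ ∈ Cs G a b e ↔ γ ∉ ln G a b ∧ ∀ x ∈ St G a b, x • γ ∈ ln G e γ := by
  rw [Cs, mem_filter]; simp

theorem card_Cs (h2 : T2 G Ω) {a b e : Ω} (hab : a ≠ b) {g : G} (ha : g • a ∈ ln G a b) (hb : g • b ∈ ln G a b) :
    (Cs G a b (g • e)).card = (Cs G a b e).card := by
  have hne : g • a ≠ g • b := fun h => hab (smul_left_cancel g h)
  have hS := St_eq_of_mem h2 hab ha hb hne
  have hL := ln_eq_of_mem h2 hab ha hb hne
  have key : ∀ γ : Ω, g • γ ∈ Cs G a b (g • e) ↔ γ ∈ Cs G a b e := by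
    intro γ
    rw [mem_Cs, mem_Cs]
    apply and_congr
    · rw [not_iff_not, ← smul_mem_ln (x := g) (a := a) (b := b) (ω := γ), hL]
    · constructor
      · intro h x hx
        have h1 : g * x * g⁻¹ ∈ St G a b := by rw [← hS]; exact (St_smul g a b).2 hx
        have h3 := h _ h1
        rw [← mul_smul, inv_mul_cancel_right, mul_smul] at h3
        exact smul_mem_ln.1 h3
      · intro h x hx
        have h1 : g⁻¹ * x * g ∈ St G a b := by
          rw [← St_smul g, hS]
          convert hx using 1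
          group
        have h3 := smul_mem_ln (x := g).2 (h _ h1)
        rw [← mul_smul, ← mul_assoc, ← mul_assoc, mul_inv_cancel, one_mul, mul_smul] at h3
        exact h3
  symm
  apply card_bij (fun ω _ => g • ω)
  · intro ω hω
    exact (key ω).2 hω
  · intro a _ b _ h
    exact smul_left_cancel g h
  · intro ω hω
    refine ⟨g⁻¹ • ω, ?_, smul_inv_smul g ω⟩
    rw [← key, smul_inv_smul]
    exact hω

/-- the case of lines with three points -/
theorem case_three [FaithfulSMul G Ω] (h2 : T2 G Ω) (hn : 7 ≤ Fintype.card Ω)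
    (hE : ∀ a b : Ω, a ≠ b → ∀ ω, ω ∉ ln G a b → 2 * tt G a b ω = Nat.card (St G a b)) {α β : Ω} (hαβ : α ≠ β)
    (hl : ∀ a b : Ω, a ≠ b → (ln G a b).card = 3) (hh : Fintype.card Ω < 3 * (2 * Nat.card (St G α β) - 1)) : False := by
  -- moving elements
  have hmov : ∀ a b : Ω, a ≠ b → ∀ ω, ω ∉ ln G a b → ∃ x ∈ St G a b, x • ω ≠ ω := by
    intro a b hab ω hω
    by_contra h
    push Not at h
    exact hω (mem_ln.2 h)
  -- every point outside a line has a unique centre
  have hcen : ∀ a b : Ω, a ≠ b → ∀ γ, γ ∉ ln G a b → ∃ e ∈ ln G a b, γ ∈ Cs G a b e := by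
    intro a b hab γ hγ
    obtain ⟨x, hx, hxγ⟩ := hmov a b hab γ hγ
    obtain ⟨e, he1, he2, he⟩ := third hxγ.symm (hl γ (x • γ) hxγ.symm)
    have hy : ∀ y ∈ St G a b, y • γ = γ ∨ y • γ = x • γ := by
      intro y hy
      by_cases h : y • γ = γ
      · exact Or.inl h
      · exact Or.inr (moved_eq (hE a b hab γ) hy hx h hxγ)
    have hxx : x • x • γ = γ := by
      rw [← mul_smul, sq_eq_one (hE a b hab) hx, one_smul]
    have hy' : ∀ y ∈ St G a b, y • x • γ = γ ∨ y • x • γ = x • γ := by
      intro y hyS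
      rw [← mul_smul]
      exact hy _ (mul_mem hyS hx)
    have heln : e ∈ ln G γ (x • γ) := (he e).2 (Or.inr (Or.inr rfl))
    have hee : e ∈ ln G a b := by
      rw [mem_ln]
      intro y hyS
      have h1 : y • e ∈ ln G (y • γ) (y • x • γ) := smul_mem_ln.2 heln
      have hne : y • γ ≠ y • x • γ := fun h => hxγ.symm (smul_left_cancel y h)
      have hpair : (y • γ = γ ∧ y • x • γ = x • γ) ∨ (y • γ = x • γ ∧ y • x • γ = γ) := by
        rcases hy y hyS with h | h <;> rcases hy' y hyS with h' | h'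
        · exact absurd (h.trans h'.symm) hne
        · exact Or.inl ⟨h, h'⟩
        · exact Or.inr ⟨h, h'⟩
        · exact absurd (h.trans h'.symm) hne
      have h3 : y • e ∈ ln G γ (x • γ) := by
        rcases hpair with ⟨h, h'⟩ | ⟨h, h'⟩
        · rw [h, h'] at h1; exact h1
        · rw [h, h', ln_comm] at h1; exact h1
      rcases (he _).1 h3 with h | h | h
      · exfalso
        rcases hpair with ⟨h4, h5⟩ | ⟨h4, h5⟩
        · exact he1 (smul_left_cancel y (h.trans h4.symm))
        · exact he2 (smul_left_cancel y (h.trans h5.symm))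
      · exfalso
        rcases hpair with ⟨h4, h5⟩ | ⟨h4, h5⟩
        · exact he2 (smul_left_cancel y (h.trans h5.symm))
        · exact he1 (smul_left_cancel y (h.trans h4.symm))
      · exact h
    refine ⟨e, hee, mem_Cs.2 ⟨hγ, fun y hyS => ?_⟩⟩
    rw [ln_eq_of_mem h2 hxγ.symm heln (left_mem_ln _ _) he1]
    rcases hy y hyS with h | h
    · rw [h]; exact left_mem_ln _ _
    · rw [h]; exact right_mem_ln _ _
  have huniq : ∀ a b : Ω, a ≠ b → ∀ e ∈ ln G a b, ∀ e' ∈ ln G a b, e ≠ e' → Disjoint (Cs G a b e) (Cs G a b e') := by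
    intro a b hab e he e' he' hne
    rw [disjoint_left]
    intro γ hγ hγ'
    rw [mem_Cs] at hγ hγ'
    obtain ⟨x, hx, hxγ⟩ := hmov a b hab γ hγ.1
    have heγ : e ≠ γ := by rintro rfl; exact hγ.1 he
    have heγ' : e' ≠ γ := by rintro rfl; exact hγ.1 he'
    have h1 := ln_eq_of_mem h2 heγ (hγ.2 x hx) (right_mem_ln e γ) hxγ
    have h3 := ln_eq_of_mem h2 heγ' (hγ'.2 x hx) (right_mem_ln e' γ) hxγ
    have h4 : e' ∈ ln G e γ := by rw [← h1, h3]; exact left_mem_ln _ _
    have h5 := ln_eq_of_mem h2 heγ (left_mem_ln e γ) h4 hne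
    have h6 := ln_eq_of_mem h2 hab he he' hne
    apply hγ.1
    rw [← h6, h5]
    exact right_mem_ln _ _
  -- counting centres
  have hcount : ∀ a b : Ω, a ≠ b → 3 * (Cs G a b a).card + 3 = Fintype.card Ω := by
    intro a b hab
    obtain ⟨c, hca, hcb, hc⟩ := third hab (hl a b hab)
    have hcl : c ∈ ln G a b := (hc c).2 (Or.inr (Or.inr rfl))
    obtain ⟨g, hg1, hg2⟩ := h2 a b b a hab hab.symm
    obtain ⟨g', hg1', hg2'⟩ := h2 a b c a hab hca
    have e1 : (Cs G a b b).card = (Cs G a b a).card := by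
      have := card_Cs h2 hab (e := a) (g := g) (by rw [hg1]; exact right_mem_ln _ _) (by rw [hg2]; exact left_mem_ln _ _)
      rwa [hg1] at this
    have e2 : (Cs G a b c).card = (Cs G a b a).card := by
      have := card_Cs h2 hab (e := a) (g := g') (by rw [hg1']; exact hcl) (by rw [hg2']; exact left_mem_ln _ _)
      rwa [hg1'] at this
    have e3 : univ.filter (fun γ => γ ∉ ln G a b) = Cs G a b a ∪ (Cs G a b b ∪ Cs G a b c) := by
      ext γ
      simp only [mem_filter, mem_univ, true_and, mem_union]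
      constructor
      · intro h
        obtain ⟨e, he, heC⟩ := hcen a b hab γ h
        rcases (hc e).1 he with rfl | rfl | rfl
        · exact Or.inl heC
        · exact Or.inr (Or.inl heC)
        · exact Or.inr (Or.inr heC)
      · rintro (h | h | h) <;> exact (mem_Cs.1 h).1
    have e4 : (univ.filter (fun γ => γ ∉ ln G a b)).card + 3 = Fintype.card Ω := by
      rw [← hl a b hab, ← Finset.card_univ, ← card_filter_add_card_filter_not (s := univ) (fun ω => ω ∈ ln G a b), add_comm]
      congr 2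
      ext ω; simp
    rw [← e4, e3, card_union_of_disjoint, card_union_of_disjoint, e1, e2]
    · ring
    · exact huniq a b hab b (right_mem_ln _ _) c hcl hcb.symm
    · rw [disjoint_union_right]
      exact ⟨huniq a b hab a (left_mem_ln _ _) b (right_mem_ln _ _) hab, huniq a b hab a (left_mem_ln _ _) c hcl hca.symm⟩
  -- the classes
  have hclass : ∀ b : Ω, α ≠ b → 3 * ((univ.erase α).filter (fun γ => Qs G α γ = Qs G α b)).card = Fintype.card Ω + 3 := by
    intro b hab
    obtain ⟨c, hca, hcb, hc⟩ := third hab (hl α b hab)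
    have hcl : c ∈ ln G α b := (hc c).2 (Or.inr (Or.inr rfl))
    have e1 : (univ.erase α).filter (fun γ => Qs G α γ = Qs G α b) = {b, c} ∪ Cs G α b α := by
      ext γ
      simp only [mem_filter, mem_erase, mem_univ, and_true, mem_union, mem_insert, mem_singleton]
      constructor
      · rintro ⟨h1, h3⟩
        by_cases hγ : γ ∈ ln G α b
        · left
          rcases (hc _).1 hγ with h | h | h
          · exact absurd h h1
          · exact Or.inl h
          · exact Or.inr h
        · right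
          rw [mem_Cs]
          refine ⟨hγ, fun x hx => ?_⟩
          have h4 : x ∈ Qs G α γ := by rw [h3]; exact St_le_Qs h2 hab hx
          exact ((mem_Qs h2 (Ne.symm h1)).1 h4).2
      · rintro (h | h)
        · have h3 : γ ∈ ln G α b ∧ γ ≠ α := by
            rcases h with rfl | rfl
            · exact ⟨right_mem_ln _ _, hab.symm⟩
            · exact ⟨hcl, hca⟩
          refine ⟨h3.2, ?_⟩
          have h4 := St_eq_of_mem h2 hab (left_mem_ln _ _) h3.1 h3.2.symm
          exact Qs_eq h2 hl hab h3.2.symm (by rw [← h4]; exact St_le_Qs h2 h3.2.symm)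
        · rw [mem_Cs] at h
          have h3 : γ ≠ α := by rintro rfl; exact h.1 (left_mem_ln _ _)
          refine ⟨h3, Qs_eq h2 hl hab h3.symm ?_⟩
          intro x hx
          exact (mem_Qs h2 h3.symm).2 ⟨(mem_St.1 hx).1, h.2 x hx⟩
    have e2 : Disjoint ({b, c} : Finset Ω) (Cs G α b α) := by
      rw [disjoint_left]
      intro γ hγ hγ'
      simp only [mem_insert, mem_singleton] at hγ
      apply (mem_Cs.1 hγ').1
      rcases hγ with rfl | rfl
      · exact right_mem_ln _ _
      · exact hcl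
    rw [e1, card_union_of_disjoint e2, card_pair hcb.symm]
    have := hcount α b hab
    omega
  have hdiv : ∃ m, m * ((univ.erase α).filter (fun γ => Qs G α γ = Qs G α β)).card = Fintype.card Ω - 1 := by
    refine ⟨((univ.erase α).image (fun γ => Qs G α γ)).card, ?_⟩
    have h1 := card_eq_sum_card_image (fun γ => Qs G α γ) (univ.erase α)
    rw [card_erase_of_mem (mem_univ _), Finset.card_univ] at h1
    rw [h1]
    have h3 : ∀ Q ∈ (univ.erase α).image (fun γ => Qs G α γ), ((univ.erase α).filter (fun γ => Qs G α γ = Q)).card =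
        ((univ.erase α).filter (fun γ => Qs G α γ = Qs G α β)).card := by
      intro Q hQ
      rw [mem_image] at hQ
      obtain ⟨b, hb, rfl⟩ := hQ
      rw [mem_erase] at hb
      have h4 := hclass b hb.1.symm
      have h5 := hclass β hαβ
      omega
    rw [sum_congr rfl h3, sum_const, smul_eq_mul]
  obtain ⟨m, hm⟩ := hdiv
  have hs := hclass β hαβ
  have hn9 : Fintype.card Ω = 9 := by
    generalize ((univ.erase α).filter (fun γ => Qs G α γ = Qs G α β)).card = s at hm hs
    have h1 : m * s + 4 = 3 * s := by omega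
    have h3 : m < 3 := by
      by_contra h
      have : 3 * s ≤ m * s := Nat.mul_le_mul_right _ (by omega)
      omega
    interval_cases m <;> omega
  -- n = 9
  rw [hn9] at hh
  obtain ⟨γ, -, hγ⟩ : ∃ γ ∈ (univ : Finset Ω), γ ∉ ln G α β := by
    apply exists_mem_notMem_of_card_lt_card
    rw [Finset.card_univ, hl α β hαβ]
    omega
  have h1 := hE α β hαβ γ hγ
  obtain ⟨x, hxK, hx1⟩ : ∃ x ∈ St G α β ⊓ stabilizer G γ, x ≠ 1 := by
    have h3 : 1 < Nat.card (St G α β ⊓ stabilizer G γ : Subgroup G) := by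
      show 1 < tt G α β γ
      omega
    rw [Subgroup.one_lt_card_iff_ne_bot] at h3
    by_contra h
    push Not at h
    exact h3 ((Subgroup.eq_bot_iff_forall _).2 h)
  obtain ⟨hxS, hxγ⟩ := Subgroup.mem_inf.1 hxK
  rw [mem_stabilizer_iff] at hxγ
  obtain ⟨y, hy, hyγ⟩ := hmov α β hαβ γ hγ
  have h3 := fx_bound h2 hαβ hx1
  rw [hl α β hαβ, hn9] at h3
  have h4 : insert γ (insert (y • γ) (ln G α β)) ⊆ univ.filter (fun ω : Ω => x • ω = ω) := by
    intro ω hω
    rw [mem_filter]
    refine ⟨mem_univ _, ?_⟩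
    simp only [mem_insert] at hω
    rcases hω with rfl | rfl | hω
    · exact hxγ
    · rw [← mul_smul, St_comm_mul (hE α β hαβ) hxS hy, mul_smul, hxγ]
    · exact mem_ln.1 hω x hxS
  have h5 : (insert γ (insert (y • γ) (ln G α β))).card = 5 := by
    rw [card_insert_of_notMem, card_insert_of_notMem, hl α β hαβ]
    · intro h
      apply hγ
      have h6 := mem_ln.1 h y hy
      rw [smul_left_cancel_iff] at h6
      exact absurd h6 hyγ
    · rw [mem_insert, not_or]
      exact ⟨hyγ.symm, hγ⟩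
  have h6 := card_le_card h4
  rw [h5] at h6
  have h7 : 5 ≤ fx Ω x := h6
  omega

end Cfsg.Agent.H18.Der
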