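import Mathlib
import Cfsg.Agent.H18_MG2

/-!
Babai's lower bound for the minimal degree of primitive groups.
-/

set_option autoImplicit false
set_option linter.all false

open MulAction Subgroup SubMulAction
open scoped Pointwise

namespace Cfsg.Agent.H18.MD

open Cfsg.Agent.H18.MG

theorem ncard_le_of_cover {α β : Type*} [Finite α] [Finite β] {S : Set α} {T : Set β} (f : α → Set β)
    (hcov : ∀ b ∈ T, ∃ a ∈ S, b ∈ f a) (c : ℕ) (hf : ∀ a ∈ S, (f a).ncard ≤ c) :
    T.ncard ≤ S.ncard * c := by
  classical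
  haveI := Fintype.ofFinite α
  haveI := Fintype.ofFinite β
  have h1 : (S.toFinset.biUnion (fun a => (f a).toFinset)).card ≤ S.toFinset.card * c := by
    apply Finset.card_biUnion_le_card_mul
    intro a ha
    rw [← Set.ncard_eq_toFinset_card']
    exact hf a (Set.mem_toFinset.1 ha)
  have h2 : T ⊆ ↑(S.toFinset.biUnion (fun a => (f a).toFinset)) := by
    intro b hb
    obtain ⟨a, ha, hba⟩ := hcov b hb
    rw [Finset.mem_coe, Finset.mem_biUnion]
    exact ⟨a, Set.mem_toFinset.2 ha, Set.mem_toFinset.2 hba⟩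
  have h3 := Set.ncard_le_ncard h2 (Set.toFinite _)
  rw [Set.ncard_coe_finset] at h3
  rw [Set.ncard_eq_toFinset_card' S]
  exact h3.trans h1

variable {G : Type*} [Group G] {Ω : Type*} [MulAction G Ω]

/-- points distinguishing `x` and `y` -/
def Dist (G : Type*) [Group G] {Ω : Type*} [MulAction G Ω] (x y : Ω) : Set Ω :=
  {z | ¬ ∃ g : G, g • z = z ∧ g • x = y}

theorem Dist_smul (g : G) (x y : Ω) : Dist G (g • x) (g • y) = g • Dist G x y := by
  ext z
  rw [Set.mem_smul_set_iff_inv_smul_mem]
  change (¬ ∃ h : G, h • z = z ∧ h • g • x = g • y) ↔ ¬ ∃ h : G, h • g⁻¹ • z = g⁻¹ • z ∧ h • x = y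
  rw [not_iff_not]
  constructor
  · rintro ⟨h, h1, h2⟩
    refine ⟨g⁻¹ * h * g, ?_, ?_⟩
    · rw [mul_smul, mul_smul, smul_inv_smul, h1]
    · rw [mul_smul, mul_smul, h2, inv_smul_smul]
  · rintro ⟨h, h1, h2⟩
    refine ⟨g * h * g⁻¹, ?_, ?_⟩
    · rw [mul_smul, mul_smul, h1, smul_inv_smul]
    · rw [mul_smul, mul_smul, inv_smul_smul, h2]

theorem Dist_comm (x y : Ω) : Dist G x y = Dist G y x := by
  ext z
  change (¬ ∃ h : G, h • z = z ∧ h • x = y) ↔ ¬ ∃ h : G, h • z = z ∧ h • y = x
  rw [not_iff_not]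
  constructor
  · rintro ⟨h, h1, h2⟩
    exact ⟨h⁻¹, by rw [inv_smul_eq_iff, h1], by rw [inv_smul_eq_iff, h2]⟩
  · rintro ⟨h, h1, h2⟩
    exact ⟨h⁻¹, by rw [inv_smul_eq_iff, h1], by rw [inv_smul_eq_iff, h2]⟩

theorem Dist_tri (x y w : Ω) : Dist G x w ⊆ Dist G x y ∪ Dist G y w := by
  intro z hz
  by_contra hcon
  rw [Set.mem_union, not_or] at hcon
  obtain ⟨h1, h2⟩ := hcon
  change ¬ ¬ _ at h1
  change ¬ ¬ _ at h2
  rw [not_not] at h1 h2
  obtain ⟨g, g1, g2⟩ := h1
  obtain ⟨h, h1, h2⟩ := h2
  exact hz ⟨h * g, by rw [mul_smul, g1, h1], by rw [mul_smul, g2, h2]⟩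

theorem Dist_supp (g : G) (x : Ω) : Dist G x (g • x) ⊆ {z | g • z ≠ z} := by
  intro z hz hgz
  exact hz ⟨g, hgz, rfl⟩

/-- invariant graphs of primitive groups are connected -/
theorem connected (hprim : IsPreprimitive G Ω) (Φ : Ω → Ω → Prop) (hsymm : ∀ x y, Φ x y → Φ y x)
    (hinv : ∀ (g : G) (x y : Ω), Φ x y → Φ (g • x) (g • y)) (hne : ∃ x y, x ≠ y ∧ Φ x y)
    (S : Set Ω) (hS : S.Nonempty) (hcl : ∀ x ∈ S, ∀ y, Φ x y → y ∈ S) : S = Set.univ := by
  obtain ⟨x0, hx0⟩ := hS
  let B : Ω → Set Ω := fun x => {y | Relation.ReflTransGen Φ x y}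
  have hBsymm : ∀ x y, Relation.ReflTransGen Φ x y → Relation.ReflTransGen Φ y x := by
    intro x y h
    induction h with
    | refl => exact Relation.ReflTransGen.refl
    | tail _ h2 ih => exact Relation.ReflTransGen.head (hsymm _ _ h2) ih
  have hBinv : ∀ (g : G) x y, Relation.ReflTransGen Φ x y → Relation.ReflTransGen Φ (g • x) (g • y) := by
    intro g x y h
    induction h with
    | refl => exact Relation.ReflTransGen.refl
    | tail _ h2 ih => exact ih.tail (hinv g _ _ h2)
  have hBs : ∀ (g : G) x, g • B x = B (g • x) := by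
    intro g x
    ext z
    rw [Set.mem_smul_set_iff_inv_smul_mem]
    constructor
    · intro h
      have := hBinv g _ _ h
      rwa [smul_inv_smul] at this
    · intro h
      have := hBinv g⁻¹ _ _ h
      rwa [inv_smul_smul] at this
  have hBeq : ∀ x y z, z ∈ B x → z ∈ B y → B x = B y := by
    intro x y z hx hy
    ext w
    exact ⟨fun h => hy.trans ((hBsymm _ _ hx).trans h), fun h => hx.trans ((hBsymm _ _ hy).trans h)⟩
  have hblock : IsBlock G (B x0) := by
    intro g1 g2 hne
    rw [Set.disjoint_left]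
    intro z h1 h2
    apply hne
    rw [hBs] at h1 h2 ⊢
    rw [hBs]
    exact hBeq _ _ z h1 h2
  rcases hprim.isTrivialBlock_of_isBlock hblock with h | h
  · exfalso
    obtain ⟨x, y, hxy, hΦ⟩ := hne
    obtain ⟨g, hg⟩ := hprim.toIsPretransitive.exists_smul_eq x x0
    have h1 := hinv g x y hΦ
    rw [hg] at h1
    have h2 : g • y = x0 := h (show g • y ∈ B x0 from Relation.ReflTransGen.single h1)
      (show x0 ∈ B x0 from Relation.ReflTransGen.refl)
    rw [← hg] at h2
    exact hxy (MulAction.injective g h2).symm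
  · rw [Set.eq_univ_iff_forall]
    intro z
    have hz : z ∈ B x0 := by rw [h]; trivial
    have : ∀ w, Relation.ReflTransGen Φ x0 w → w ∈ S := by
      intro w hw
      induction hw with
      | refl => exact hx0
      | tail _ h2 ih => exact hcl _ ih _ h2
    exact this z hz

/-- Babai's theorem for simply primitive groups -/
theorem simply_primitive [Finite Ω] (hprim : IsPreprimitive G Ω)
    (hn2 : ¬ ∀ a b c d : Ω, a ≠ b → c ≠ d → ∃ g : G, g • a = c ∧ g • b = d) {x0 y0 : Ω} (hxy0 : x0 ≠ y0) :
    Nat.card Ω ≤ (2 * (Dist G x0 y0).ncard + 1) ^ 2 := by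
  classical
  haveI := Fintype.ofFinite Ω
  have htr := hprim.toIsPretransitive
  obtain ⟨⟨a0, b0⟩, hab0, hmin⟩ := Set.exists_min_image {p : Ω × Ω | p.1 ≠ p.2}
    (fun p => (Dist G p.1 p.2).ncard) (Set.toFinite _) ⟨(x0, y0), hxy0⟩
  simp only [Set.mem_setOf_eq, Prod.forall] at hmin hab0
  obtain ⟨m, hm⟩ : ∃ m, m = (Dist G a0 b0).ncard := ⟨_, rfl⟩
  rw [← hm] at hmin
  suffices hmain : Nat.card Ω ≤ (2 * m + 1) ^ 2 by
    refine hmain.trans (Nat.pow_le_pow_left ?_ 2)
    have := hmin x0 y0 hxy0
    omega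
  obtain ⟨n, hn⟩ : ∃ n, n = Nat.card Ω := ⟨_, rfl⟩
  rw [← hn]
  have hinvD : ∀ (g : G) (x y : Ω), (Dist G (g • x) (g • y)).ncard = (Dist G x y).ncard := by
    intro g x y
    rw [Dist_smul, Set.ncard_smul_set]
  let Γ : Ω → Ω → Prop := fun x y => x ≠ y ∧ (Dist G x y).ncard = m
  have hΓsymm : ∀ x y, Γ x y → Γ y x := by
    rintro x y ⟨h1, h2⟩
    exact ⟨h1.symm, by rw [Dist_comm]; exact h2⟩
  have hΓinv : ∀ (g : G) x y, Γ x y → Γ (g • x) (g • y) := by
    rintro g x y ⟨h1, h2⟩
    exact ⟨fun h => h1 (MulAction.injective g h), by rw [hinvD]; exact h2⟩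
  have hΓne : ∃ x y, x ≠ y ∧ Γ x y := ⟨a0, b0, hab0, hab0, hm.symm⟩
  have hΓconn := fun S hS hcl => connected hprim Γ hΓsymm hΓinv hΓne S hS hcl
  have hnbr : ∀ (g : G) x, {y | Γ (g • x) y} = g • {y | Γ x y} := by
    intro g x
    ext y
    rw [Set.mem_smul_set_iff_inv_smul_mem]
    constructor
    · intro h
      have := hΓinv g⁻¹ _ _ h
      rwa [inv_smul_smul] at this
    · intro h
      have := hΓinv g _ _ h
      rwa [smul_inv_smul] at this
  obtain ⟨d, hd⟩ : ∃ d, d = {y | Γ a0 y}.ncard := ⟨_, rfl⟩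
  have hdx : ∀ x, {y | Γ x y}.ncard = d := by
    intro x
    obtain ⟨g, hg⟩ := htr.exists_smul_eq a0 x
    rw [← hg, hnbr, Set.ncard_smul_set, hd]
  -- every `z` distinguishes `x` from a neighbour
  have h1 : n ≤ d * m := by
    have hcov : ∀ z ∈ (Set.univ : Set Ω), ∃ y ∈ {y | Γ a0 y}, z ∈ Dist G a0 y := by
      intro z _
      by_contra hcon
      push Not at hcon
      let O : Set Ω := {w | ∃ g : G, g • z = z ∧ g • a0 = w}
      have hO : O = Set.univ := by
        apply hΓconn O ⟨a0, 1, one_smul _ _, one_smul _ _⟩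
        rintro _ ⟨g, hg1, rfl⟩ y hy
        have h2 := hΓinv g⁻¹ _ _ hy
        rw [inv_smul_smul] at h2
        have h3 := hcon _ h2
        have h4 : ∃ h : G, h • z = z ∧ h • a0 = g⁻¹ • y := by
          by_contra h5; exact h3 h5
        obtain ⟨h, h4, h5⟩ := h4
        exact ⟨g * h, by rw [mul_smul, h4, hg1], by rw [mul_smul, h5, smul_inv_smul]⟩
      -- `O ≠ univ`
      by_cases hz : z = a0
      · have : b0 ∈ O := by rw [hO]; trivial
        obtain ⟨g, hg1, hg2⟩ := this
        rw [hz] at hg1
        exact hab0 (hg1.symm.trans hg2)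
      · have : z ∈ O := by rw [hO]; trivial
        obtain ⟨g, hg1, hg2⟩ := this
        exact hz (MulAction.injective g (hg1.trans hg2.symm))
    have := ncard_le_of_cover (fun y => Dist G a0 y) hcov m (fun y hy => hy.2.le)
    rw [Set.ncard_univ, ← hd] at this
    rw [hn]; exact this
  by_cases hcase : ∃ x a b y, Γ x a ∧ Γ a b ∧ Γ b y ∧ ∀ z, Γ x z → ¬ Γ y z
  · -- diameter at least 3
    obtain ⟨x, a, b, y, hxa, hab, hby, hdis⟩ := hcase
    have h2 : (Dist G x y).ncard ≤ 3 * m := by
      have e1 : Dist G x y ⊆ Dist G x a ∪ (Dist G a b ∪ Dist G b y) :=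
        (Dist_tri x a y).trans (Set.union_subset_union_right _ (Dist_tri a b y))
      have e2 := Set.ncard_le_ncard e1 (Set.toFinite _)
      have e3 := Set.ncard_union_le (Dist G x a) (Dist G a b ∪ Dist G b y)
      have e4 := Set.ncard_union_le (Dist G a b) (Dist G b y)
      have f1 : (Dist G x a).ncard = m := hxa.2
      have f2 : (Dist G a b).ncard = m := hab.2
      have f3 : (Dist G b y).ncard = m := hby.2
      omega
    have h3 : {z | Γ x z} ∪ {z | Γ y z} ⊆ Dist G x y := by
      rintro z (hz | hz)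
      · rintro ⟨g, hg1, hg2⟩
        have := hΓinv g _ _ hz
        rw [hg1, hg2] at this
        exact hdis z hz this
      · rintro ⟨g, hg1, hg2⟩
        have := hΓinv g⁻¹ _ _ hz
        rw [inv_smul_eq_iff.2 hg2.symm, inv_smul_eq_iff.2 hg1.symm] at this
        exact hdis z this hz
    have h4 := Set.ncard_le_ncard h3 (Set.toFinite _)
    have hdj : Disjoint {z | Γ x z} {z | Γ y z} := Set.disjoint_left.2 (fun z hz hz' => hdis z hz hz')
    rw [Set.ncard_union_eq hdj (Set.toFinite _) (Set.toFinite _),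
      hdx, hdx] at h4
    have h5 : 2 * d ≤ 3 * m := by omega
    nlinarith [Nat.mul_le_mul_right m h5]
  · -- diameter at most 2
    push Not at hcase
    have hall : ∀ x y : Ω, (Dist G x y).ncard ≤ 2 * m := by
      intro x y
      have hR : {y | y = x ∨ Γ x y ∨ ∃ a, Γ x a ∧ Γ a y} = Set.univ := by
        apply hΓconn _ ⟨x, Or.inl rfl⟩
        rintro y' (rfl | hy' | ⟨a, ha, hay'⟩) y hy
        · exact Or.inr (Or.inl hy)
        · exact Or.inr (Or.inr ⟨y', hy', hy⟩)
        · obtain ⟨z, hz1, hz2⟩ := hcase x a y' y ha hay' hy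
          exact Or.inr (Or.inr ⟨z, hz1, hΓsymm _ _ hz2⟩)
      have hy : y ∈ {y | y = x ∨ Γ x y ∨ ∃ a, Γ x a ∧ Γ a y} := by rw [hR]; trivial
      rcases hy with rfl | hy | ⟨a, ha, hay⟩
      · have : Dist G y y = ∅ := by
          rw [Set.eq_empty_iff_forall_notMem]
          intro z hz
          exact hz ⟨1, one_smul _ _, one_smul _ _⟩
        rw [this, Set.ncard_empty]; omega
      · have : (Dist G x y).ncard = m := hy.2
        omega
      · have e1 := Set.ncard_le_ncard (Dist_tri (G := G) x a y) (Set.toFinite _)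
        have e2 := Set.ncard_union_le (Dist G x a) (Dist G a y)
        have f1 : (Dist G x a).ncard = m := ha.2
        have f2 : (Dist G a y).ncard = m := hay.2
        omega
    -- the largest suborbit
    let O : Ω → Ω → Set Ω := fun u v => {w | ∃ g : G, g • u = u ∧ g • v = w}
    obtain ⟨⟨u, v⟩, huv, hmax⟩ := Set.exists_max_image {p : Ω × Ω | p.1 ≠ p.2}
      (fun p => (O p.1 p.2).ncard) (Set.toFinite _) ⟨(x0, y0), hxy0⟩
    simp only [Set.mem_setOf_eq, Prod.forall] at hmax huv
    obtain ⟨N, hN⟩ : ∃ N, N = (O u v).ncard := ⟨_, rfl⟩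
    rw [← hN] at hmax
    let Θ : Ω → Ω → Prop := fun a b => ∃ g : G, g • u = a ∧ g • v = b
    have hΘuv : Θ u v := ⟨1, one_smul _ _, one_smul _ _⟩
    have hΘinv : ∀ (g : G) a b, Θ a b → Θ (g • a) (g • b) := by
      rintro g _ _ ⟨h, rfl, rfl⟩
      exact ⟨g * h, mul_smul _ _ _, mul_smul _ _ _⟩
    have hΘne : ∀ a b, Θ a b → a ≠ b := by
      rintro _ _ ⟨h, rfl, rfl⟩ he
      exact huv (MulAction.injective h he)
    have hΘnbr : ∀ (g : G) x, {y | Θ (g • x) y} = g • {y | Θ x y} := by
      intro g x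
      ext y
      rw [Set.mem_smul_set_iff_inv_smul_mem]
      constructor
      · intro h
        have := hΘinv g⁻¹ _ _ h
        rwa [inv_smul_smul] at this
      · intro h
        have := hΘinv g _ _ h
        rwa [smul_inv_smul] at this
    have hΘN : ∀ a, {b | Θ a b}.ncard = N := by
      intro a
      obtain ⟨g, hg⟩ := htr.exists_smul_eq u a
      rw [← hg, hΘnbr, Set.ncard_smul_set, hN]
    -- double counting
    have hcard : ∀ (P : Ω → Prop) [DecidablePred P], {x | P x}.ncard = (Finset.univ.filter P).card := by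
      intro P _
      rw [← Set.ncard_coe_finset]
      congr 1
      ext x; simp
    obtain ⟨s, hs⟩ : ∃ s, n = 1 + s + N := by
      have e1 : (insert u {b | Θ u b}).ncard = N + 1 := by
        rw [Set.ncard_insert_of_notMem _ (Set.toFinite _), hΘN]
        exact fun h => hΘne _ _ h rfl
      have e2 := Set.ncard_le_ncard (Set.subset_univ (insert u {b | Θ u b})) (Set.toFinite _)
      rw [Set.ncard_univ, ← hn, e1] at e2
      exact ⟨n - 1 - N, by omega⟩
    have h2m : s + 2 ≤ 2 * m := by
      have hdc := H23.JordanSet.dc (Finset.univ.erase u) (Finset.univ : Finset Ω) (fun y z => z ∈ Dist G u y)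
      have e1 : ∀ y ∈ Finset.univ.erase u, (Finset.univ.filter (fun z => z ∈ Dist G u y)).card ≤ 2 * m := by
        intro y _
        rw [← hcard]
        exact hall u y
      have e2 : ∀ z ∈ (Finset.univ.erase u : Finset Ω), n - N ≤
          ((Finset.univ.erase u).filter (fun y => z ∈ Dist G u y)).card := by
        intro z hz
        have hzu : z ≠ u := Finset.ne_of_mem_erase hz
        have f1 : (Finset.univ.erase u).filter (fun y => z ∈ Dist G u y) = Finset.univ.filter (fun y => y ∉ O z u) := by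
          ext y
          simp only [Finset.mem_filter, Finset.mem_erase, Finset.mem_univ, and_true, true_and]
          constructor
          · exact fun h => h.2
          · intro h
            refine ⟨?_, h⟩
            rintro rfl
            exact h ⟨1, one_smul _ _, one_smul _ _⟩
        rw [f1, ← hcard]
        have f2 := Set.ncard_add_ncard_compl (O z u) (Set.toFinite _) (Set.toFinite _)
        have f3 := hmax z u hzu
        have f4 : {y | y ∉ O z u} = (O z u)ᶜ := rfl
        rw [f4]
        omega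
      have e3 : ((Finset.univ.erase u).filter (fun y => u ∈ Dist G u y)).card = n - 1 := by
        have f1 : (Finset.univ.erase u).filter (fun y => u ∈ Dist G u y) = Finset.univ.erase u := by
          apply Finset.filter_true_of_mem
          intro y hy
          rintro ⟨g, hg1, hg2⟩
          exact Finset.ne_of_mem_erase hy (hg2.symm.trans hg1)
        rw [f1, Finset.card_erase_of_mem (Finset.mem_univ _), Finset.card_univ, hn, Nat.card_eq_fintype_card]
      have hce : (Finset.univ.erase u : Finset Ω).card = n - 1 := by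
        rw [Finset.card_erase_of_mem (Finset.mem_univ _), Finset.card_univ, hn, Nat.card_eq_fintype_card]
      have g1 := Finset.sum_le_sum e1
      have g2 := Finset.sum_le_sum e2
      rw [Finset.sum_const, smul_eq_mul, hce] at g1 g2
      have g3 : ∑ z ∈ (Finset.univ : Finset Ω), ((Finset.univ.erase u).filter (fun y => z ∈ Dist G u y)).card
          = ((Finset.univ.erase u).filter (fun y => u ∈ Dist G u y)).card +
            ∑ z ∈ Finset.univ.erase u, ((Finset.univ.erase u).filter (fun y => z ∈ Dist G u y)).card :=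
        (Finset.add_sum_erase _ _ (Finset.mem_univ u)).symm
      rw [hdc, g3, e3] at g1
      have g4 : (n - 1) * (n - N + 1) ≤ (n - 1) * (2 * m) := by
        rw [Nat.mul_add, Nat.mul_one]
        omega
      have hn1 : 0 < n - 1 := by
        have e5 : 1 < Nat.card Ω := Finite.one_lt_card_iff_nontrivial.2 ⟨x0, y0, hxy0⟩
        omega
      have g5 := Nat.le_of_mul_le_mul_left g4 hn1
      omega
    by_cases hself : Θ v u
    · -- self-paired
      have hΘsymm : ∀ a b, Θ a b → Θ b a := by
        rintro _ _ ⟨g, rfl, rfl⟩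
        exact hΘinv g _ _ hself
      let Φ : Ω → Ω → Prop := fun a b => a ≠ b ∧ ¬ Θ a b
      have hΦsymm : ∀ a b, Φ a b → Φ b a := fun a b h => ⟨h.1.symm, fun h2 => h.2 (hΘsymm _ _ h2)⟩
      have hΦinv : ∀ (g : G) a b, Φ a b → Φ (g • a) (g • b) := by
        rintro g a b ⟨h1, h2⟩
        refine ⟨fun h => h1 (MulAction.injective g h), fun h3 => h2 ?_⟩
        have := hΘinv g⁻¹ _ _ h3
        rwa [inv_smul_smul, inv_smul_smul] at this
      have hΦne : ∃ x y, x ≠ y ∧ Φ x y := by
        by_contra hcon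
        push Not at hcon
        apply hn2
        have hΘall : ∀ a b, a ≠ b → Θ a b := by
          intro a b hab
          by_contra h
          exact hcon a b hab ⟨hab, h⟩
        intro a b c e hab hce
        obtain ⟨g, hg1, hg2⟩ := hΘall a b hab
        obtain ⟨h, hh1, hh2⟩ := hΘall c e hce
        exact ⟨h * g⁻¹, by rw [mul_smul, ← hg1, inv_smul_smul, hh1], by rw [mul_smul, ← hg2, inv_smul_smul, hh2]⟩
      have hΦs : ∀ a, {b | Φ a b}.ncard = s := by
        intro a
        have e1 : {b | Φ a b} = (insert a {b | Θ a b})ᶜ := by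
          ext b
          simp only [Set.mem_setOf_eq, Set.mem_compl_iff, Set.mem_insert_iff, not_or]
          exact ⟨fun h => ⟨fun h2 => h.1 h2.symm, h.2⟩, fun h => ⟨fun h2 => h.1 h2.symm, h.2⟩⟩
        have e2 : (insert a {b | Θ a b}).ncard = N + 1 := by
          rw [Set.ncard_insert_of_notMem _ (Set.toFinite _), hΘN]
          exact fun h => hΘne _ _ h rfl
        have e3 := Set.ncard_add_ncard_compl (insert a {b | Θ a b}) (Set.toFinite _) (Set.toFinite _)
        rw [e1]
        omega
      have hcommon : ∃ c b, Θ u c ∧ Φ u b ∧ Φ b c := by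
        by_contra hcon
        push Not at hcon
        have hu := connected hprim Φ hΦsymm hΦinv hΦne {b | b = u ∨ Φ u b} ⟨u, Or.inl rfl⟩ (by
          rintro b (rfl | hb) c hc
          · exact Or.inr hc
          · by_cases hcu : c = u
            · exact Or.inl hcu
            · right
              refine ⟨fun h => hcu h.symm, fun h => hcon c b h hb hc⟩)
        have hv : v ∈ {b | b = u ∨ Φ u b} := by rw [hu]; trivial
        rcases hv with hv | hv
        · exact huv hv.symm
        · exact hv.2 hΘuv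
      obtain ⟨c, b, hc, hb1, hb2⟩ := hcommon
      obtain ⟨g, hg1, hg2⟩ := hc
      have hNs : N ≤ s * s := by
        have hcov : ∀ c' ∈ {c | Θ u c}, ∃ b ∈ {b | Φ u b}, c' ∈ {c | Φ b c} := by
          rintro c' ⟨g', hg1', hg2'⟩
          refine ⟨(g' * g⁻¹) • b, ?_, ?_⟩
          · have := hΦinv (g' * g⁻¹) _ _ hb1
            have e1 : (g' * g⁻¹) • u = u := by
              rw [mul_smul, inv_smul_eq_iff.2 hg1.symm, hg1']
            rw [e1] at this
            exact this
          · have := hΦinv (g' * g⁻¹) _ _ hb2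
            have e1 : (g' * g⁻¹) • c = c' := by
              rw [mul_smul, ← hg2, inv_smul_smul, hg2']
            rw [e1] at this
            exact this
        have := ncard_le_of_cover (fun b => {c | Φ b c}) hcov s (fun b _ => (hΦs b).le)
        rw [hΘN, hΦs] at this
        exact this
      have h6 : (2 * m + 1) ≥ s + 3 := by omega
      have h7 : (2 * m + 1) ^ 2 ≥ (s + 3) ^ 2 := Nat.pow_le_pow_left h6 2
      nlinarith
    · -- not self-paired
      have hdis : ∀ a b, Θ a b → ¬ Θ b a := by
        rintro _ _ ⟨g, rfl, rfl⟩ h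
        have := hΘinv g⁻¹ _ _ h
        rw [inv_smul_smul, inv_smul_smul] at this
        exact hself this
      have hstar_inv : ∀ (g : G) x, {y | Θ y (g • x)} = g • {y | Θ y x} := by
        intro g x
        ext y
        rw [Set.mem_smul_set_iff_inv_smul_mem]
        constructor
        · intro h
          have := hΘinv g⁻¹ _ _ h
          rwa [inv_smul_smul] at this
        · intro h
          have := hΘinv g _ _ h
          rwa [smul_inv_smul] at this
      have hstar : {b | Θ b u}.ncard = N := by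
        have hdc := H23.JordanSet.dc (Finset.univ : Finset Ω) (Finset.univ : Finset Ω) (fun a b => Θ a b)
        have e1 : ∀ a ∈ (Finset.univ : Finset Ω), (Finset.univ.filter (fun b => Θ a b)).card = N := by
          intro a _
          rw [← hcard]; exact hΘN a
        have e2 : ∀ b ∈ (Finset.univ : Finset Ω), (Finset.univ.filter (fun a => Θ a b)).card = {b | Θ b u}.ncard := by
          intro b _
          rw [← hcard]
          obtain ⟨g, hg⟩ := htr.exists_smul_eq u b
          rw [← hg, hstar_inv, Set.ncard_smul_set]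
        rw [Finset.sum_congr rfl e1, Finset.sum_congr rfl e2, Finset.sum_const, Finset.sum_const, smul_eq_mul,
          smul_eq_mul] at hdc
        have hpos : 0 < (Finset.univ : Finset Ω).card := Finset.card_pos.2 ⟨u, Finset.mem_univ _⟩
        exact (Nat.eq_of_mul_eq_mul_left hpos hdc).symm
      have e3 : (insert u ({b | Θ u b} ∪ {b | Θ b u})).ncard = 2 * N + 1 := by
        have hdj : Disjoint {b | Θ u b} {b | Θ b u} := Set.disjoint_left.2 (fun b h1 h2 => hdis _ _ h1 h2)
        rw [Set.ncard_insert_of_notMem _ (Set.toFinite _),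
          Set.ncard_union_eq hdj (Set.toFinite _) (Set.toFinite _),
          hΘN, hstar]
        · omega
        · rintro (h | h)
          · exact hΘne _ _ h rfl
          · exact hΘne _ _ h rfl
      have e4 := Set.ncard_le_ncard (Set.subset_univ (insert u ({b | Θ u b} ∪ {b | Θ b u}))) (Set.toFinite _)
      rw [Set.ncard_univ, ← hn, e3] at e4
      have h6 : (2 * m + 1) ≥ s + 3 := by omega
      have h7 : (2 * m + 1) ^ 2 ≥ (s + 3) ^ 2 := Nat.pow_le_pow_left h6 2
      nlinarith

end Cfsg.Agent.H18.MD
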