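import Mathlib
import Cfsg.Agent.H18_MD1

/-!
Minimal degree: the 2-transitive case, and the bound in general.
-/

set_option autoImplicit false
set_option linter.all false

open MulAction Subgroup SubMulAction
open scoped Pointwise

namespace Cfsg.Agent.H18.MD

open Cfsg.Agent.H18.MG

/-- the separation lemma -/
theorem exists_disjoint {H : Type*} [Group H] [Finite H] {X : Type*} [MulAction H X] [Finite X]
    [IsPretransitive H X] [Nonempty X] (A B : Set X) (hAB : A.ncard * B.ncard < Nat.card X) :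
    ∃ h : H, ∀ b ∈ B, h • b ∉ A := by
  classical
  by_contra hcon
  push Not at hcon
  have hst : ∀ b : X, Nat.card (stabilizer H b) * Nat.card X = Nat.card H := by
    intro b
    have h1 := (stabilizer H b).card_mul_index
    rw [MulAction.index_stabilizer_of_transitive] at h1
    exact h1
  obtain ⟨b0⟩ := ‹Nonempty X›
  have hXpos : 0 < Nat.card X := Nat.card_pos_iff.2 ⟨⟨b0⟩, inferInstance⟩
  have hcov : ∀ h ∈ (Set.univ : Set H), ∃ p ∈ A ×ˢ B, h ∈ {h : H | h • p.2 = p.1} := by
    intro h _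
    obtain ⟨b, hb, hba⟩ := hcon h
    exact ⟨(h • b, b), ⟨hba, hb⟩, rfl⟩
  have hc : ∀ p ∈ A ×ˢ B, {h : H | h • p.2 = p.1}.ncard ≤ Nat.card (stabilizer H b0) := by
    rintro ⟨a, b⟩ _
    obtain ⟨h0, hh0⟩ := exists_smul_eq H b a
    have e1 : {h : H | h • b = a} = (fun h => h0 * h) '' (stabilizer H b : Set H) := by
      ext h
      constructor
      · intro hh
        refine ⟨h0⁻¹ * h, ?_, by group⟩
        change (h0⁻¹ * h) • b = b
        rw [mul_smul]
        have : h • b = a := hh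
        rw [this, ← hh0, inv_smul_smul]
      · rintro ⟨k, hk, rfl⟩
        change (h0 * k) • b = a
        have : k • b = b := hk
        rw [mul_smul, this, hh0]
    change {h : H | h • b = a}.ncard ≤ _
    rw [e1, Set.ncard_image_of_injective _ (mul_right_injective h0)]
    have e2 : (stabilizer H b : Set H).ncard = Nat.card (stabilizer H b) := rfl
    rw [e2]
    have := (hst b).trans (hst b0).symm
    exact (Nat.eq_of_mul_eq_mul_right hXpos this).le
  have h1 := ncard_le_of_cover (fun p : X × X => {h : H | h • p.2 = p.1}) hcov _ hc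
  rw [Set.ncard_univ, Set.ncard_prod, ← hst b0, mul_comm] at h1
  have hpos : 0 < Nat.card (stabilizer H b0) := Nat.card_pos
  have h2 := Nat.le_of_mul_le_mul_right h1 hpos
  omega

theorem three_cycle_of_two_trans {G : Type*} [Group G] [Finite G] {Ω : Type*} [MulAction G Ω] [Fintype Ω]
    [DecidableEq Ω] (h2 : ∀ a b c d : Ω, a ≠ b → c ≠ d → ∃ g : G, g • a = c ∧ g • b = d)
    {g : G} {x : Ω} (hx : g • x ≠ x)
    (hm : ({z : Ω | g • z ≠ z}.ncard - 1) ^ 2 < Nat.card Ω - 1) :
    ∃ g : G, (MulAction.toPerm g : Equiv.Perm Ω).IsThreeCycle := by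
  classical
  have hcard : Nat.card (ofStabilizer G x) + 1 = Nat.card Ω := nat_card_ofStabilizer_add_one_eq G x
  have htr : IsPretransitive (stabilizer G x) (ofStabilizer G x) := by
    constructor
    rintro ⟨y, hy⟩ ⟨z, hz⟩
    obtain ⟨g, hg1, hg2⟩ := h2 x y x z (fun h => hy h.symm) (fun h => hz h.symm)
    exact ⟨⟨g, hg1⟩, Subtype.ext hg2⟩
  set T : Set Ω := {z : Ω | g • z ≠ z} with hT
  have hxT : x ∈ T := hx
  set A : Set (ofStabilizer G x) := Subtype.val ⁻¹' T with hA
  have himg : Subtype.val '' A = T \ {x} := by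
    ext z
    constructor
    · rintro ⟨⟨y, hy⟩, hyA, rfl⟩
      exact ⟨hyA, hy⟩
    · rintro ⟨h1, h3⟩
      exact ⟨⟨z, h3⟩, h1, rfl⟩
  have hAc : A.ncard = T.ncard - 1 := by
    rw [← Set.ncard_diff_singleton_of_mem hxT, ← himg]
    exact (Set.ncard_image_of_injective _ Subtype.val_injective).symm
  have hne : Nonempty (ofStabilizer G x) := ⟨⟨g • x, hx⟩⟩
  obtain ⟨⟨h, hhx⟩, hh⟩ := exists_disjoint (H := stabilizer G x) A A (by
    rw [hAc, ← sq]; omega)
  have hhx' : h • x = x := hhx
  -- conjugate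
  have hdis : ∀ z, z ∈ T → z ≠ x → h • z ∉ T := by
    intro z hz hzx hcon
    exact hh ⟨z, hzx⟩ hz hcon
  have h12 : T ∩ (h • T) = {x} := by
    ext z
    rw [Set.mem_inter_iff, Set.mem_smul_set_iff_inv_smul_mem, Set.mem_singleton_iff]
    constructor
    · rintro ⟨h3, h4⟩
      by_contra hzx
      have h5 : h⁻¹ • z ≠ x := by
        intro h6
        rw [inv_smul_eq_iff, hhx'] at h6
        exact hzx h6
      have := hdis _ h4 h5
      rw [smul_inv_smul] at this
      exact this h3
    · rintro rfl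
      have : h⁻¹ • z = z := by rw [inv_smul_eq_iff, hhx']
      rw [this]
      exact ⟨hxT, hxT⟩
  have ha : ∀ z ∉ T, g • z = z := by
    intro z hz
    by_contra h3; exact hz h3
  have hb : ∀ z ∉ h • T, (h * g * h⁻¹) • z = z := by
    intro z hz
    rw [Set.mem_smul_set_iff_inv_smul_mem] at hz
    rw [mul_smul, mul_smul, ha _ hz, smul_inv_smul]
  have hhinv : h⁻¹ • x = x := by rw [inv_smul_eq_iff, hhx']
  have hbx : (h * g * h⁻¹) • x ≠ x := by
    rw [mul_smul, mul_smul, hhinv]
    intro h3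
    rw [← eq_inv_smul_iff, hhinv] at h3
    exact hx h3
  obtain ⟨c1, c2, c3, c4, c5⟩ := commutator_three_cycle h12 ha hb hx hbx
  refine ⟨g * (h * g * h⁻¹) * g⁻¹ * (h * g * h⁻¹)⁻¹, ?_⟩
  rw [← card_support_eq_three_iff]
  have hsupp : (MulAction.toPerm (g * (h * g * h⁻¹) * g⁻¹ * (h * g * h⁻¹)⁻¹) : Equiv.Perm Ω).support =
      {x, g • x, (h * g * h⁻¹) • x} := by
    ext z
    rw [Equiv.Perm.mem_support, MulAction.toPerm_apply]
    simp only [Finset.mem_insert, Finset.mem_singleton]
    constructor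
    · intro hz
      by_contra hcon
      push Not at hcon
      exact hz (c5 z hcon.1 hcon.2.1 hcon.2.2)
    · rintro (rfl | rfl | rfl)
      · rw [c1]; exact hx
      · rw [c3]; exact fun h => c4 h.symm
      · rw [c2]; exact fun h => hbx h.symm
  rw [hsupp, Finset.card_eq_three]
  exact ⟨x, g • x, (h * g * h⁻¹) • x, hx.symm, hbx.symm, c4, rfl⟩

theorem alt_of_three_cycle {G : Type*} [Group G] {Ω : Type*} [MulAction G Ω] [Fintype Ω] [DecidableEq Ω]
    (hprim : IsPreprimitive G Ω) {g : G} (hg : (MulAction.toPerm g : Equiv.Perm Ω).IsThreeCycle) :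
    alternatingGroup Ω ≤ (MulAction.toPermHom G Ω).range := by
  set H : Subgroup (Equiv.Perm Ω) := (MulAction.toPermHom G Ω).range with hH
  have hgH : (MulAction.toPerm g : Equiv.Perm Ω) ∈ H := ⟨g, rfl⟩
  have hHp : IsPreprimitive H Ω := by
    haveI := hprim
    let f : Ω →ₑ[(MulAction.toPermHom G Ω).rangeRestrict] Ω :=
      { toFun := id, map_smul' := fun g x => rfl }
    exact IsPreprimitive.of_surjective (f := f) (fun x => ⟨x, rfl⟩)
  exact Equiv.Perm.alternatingGroup_le_of_isPreprimitive_of_isThreeCycle_mem hHp hg hgH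

/-- the minimal degree bound -/
theorem min_degree {G : Type*} [Group G] [Finite G] {Ω : Type*} [MulAction G Ω] [Fintype Ω]
    [DecidableEq Ω] (hprim : IsPreprimitive G Ω)
    (hA : ¬ alternatingGroup Ω ≤ (MulAction.toPermHom G Ω).range)
    {g : G} {x : Ω} (hx : g • x ≠ x) : Nat.card Ω ≤ (2 * {z : Ω | g • z ≠ z}.ncard + 1) ^ 2 := by
  have hT1 : 1 ≤ {z : Ω | g • z ≠ z}.ncard := by
    rw [Nat.succ_le_iff, Set.ncard_pos (Set.toFinite _)]
    exact ⟨x, hx⟩
  by_cases h2 : ∀ a b c d : Ω, a ≠ b → c ≠ d → ∃ g : G, g • a = c ∧ g • b = d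
  · by_contra hcon
    push Not at hcon
    apply hA
    obtain ⟨m, hm⟩ : ∃ m, {z : Ω | g • z ≠ z}.ncard = m + 1 := ⟨_, (Nat.sub_add_cancel hT1).symm⟩
    obtain ⟨g', hg'⟩ := three_cycle_of_two_trans h2 hx (by
      rw [hm] at hcon ⊢
      have e1 : m + 1 - 1 = m := by omega
      rw [e1]
      have e2 : m ^ 2 + 1 < (2 * (m + 1) + 1) ^ 2 := by nlinarith
      omega)
    exact alt_of_three_cycle hprim hg'
  · refine (simply_primitive hprim h2 hx.symm).trans (Nat.pow_le_pow_left ?_ 2)
    have := Set.ncard_le_ncard (Dist_supp g x) (Set.toFinite _)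
    omega

end Cfsg.Agent.H18.MD
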