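import Mathlib
import Cfsg.Agent.H18_MG2

/-!
A quasiprimitive group with a Jordan set `Γ`, `1 < |Γ| < n/2`, contains the alternating group.
-/

set_option autoImplicit false
set_option linter.all false

open MulAction Subgroup SubMulAction
open scoped Pointwise

namespace Cfsg.Agent.H18.MG

open Cfsg.Agent.H23.JordanSet

universe u v

theorem alt_le_of {R : Type*} [Fintype R] [DecidableEq R] (P : Subgroup (Equiv.Perm R))
    (hP : ∀ π ∈ alternatingGroup R, ∀ τ ∈ P, π * τ * π⁻¹ ∈ P) {a b c : R} (hab : a ≠ b) (hac : a ≠ c)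
    (hbc : b ≠ c) (h : Equiv.swap a b * Equiv.swap a c ∈ P) : alternatingGroup R ≤ P := by
  rw [← Equiv.Perm.closure_three_cycles_eq_alternating, Subgroup.closure_le]
  intro τ hτ
  have h3 : (Equiv.swap a b * Equiv.swap a c).IsThreeCycle :=
    Equiv.Perm.isThreeCycle_swap_mul_swap_same hab hac hbc
  have hconj : IsConj (Equiv.swap a b * Equiv.swap a c) τ :=
    Equiv.Perm.isConj_iff_cycleType_eq.2 (h3.cycleType.trans (Equiv.Perm.IsThreeCycle.cycleType hτ).symm)
  rw [isConj_iff] at hconj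
  obtain ⟨π, hπ⟩ := hconj
  rcases Int.units_eq_one_or (Equiv.Perm.sign π) with hs | hs
  · rw [← hπ]
    exact hP π (by rw [Equiv.Perm.mem_alternatingGroup]; exact hs) _ h
  · have hs2 : π * Equiv.swap b c ∈ alternatingGroup R := by
      rw [Equiv.Perm.mem_alternatingGroup, Equiv.Perm.sign_mul, hs, Equiv.Perm.sign_swap hbc]
      norm_num
    have h4 := hP _ hs2 _ (P.inv_mem h)
    have e1 : π * Equiv.swap b c * (Equiv.swap a b * Equiv.swap a c)⁻¹ * (π * Equiv.swap b c)⁻¹ = τ := by
      rw [← hπ]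
      have e2 : Equiv.swap b c * (Equiv.swap a b * Equiv.swap a c)⁻¹ * (Equiv.swap b c)⁻¹
          = Equiv.swap a b * Equiv.swap a c := by
        have e3 : Equiv.swap b c * Equiv.swap a c * (Equiv.swap b c)⁻¹ = Equiv.swap a b := by
          rw [Equiv.mul_swap_eq_swap_mul, mul_assoc, mul_inv_cancel, mul_one,
            Equiv.swap_apply_of_ne_of_ne hab hac, Equiv.swap_apply_right]
        have e4 : Equiv.swap b c * Equiv.swap a b * (Equiv.swap b c)⁻¹ = Equiv.swap a c := by
          rw [Equiv.mul_swap_eq_swap_mul, mul_assoc, mul_inv_cancel, mul_one,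
            Equiv.swap_apply_of_ne_of_ne hab hac, Equiv.swap_apply_left]
        rw [mul_inv_rev, Equiv.swap_inv, Equiv.swap_inv]
        calc Equiv.swap b c * (Equiv.swap a c * Equiv.swap a b) * (Equiv.swap b c)⁻¹
            = (Equiv.swap b c * Equiv.swap a c * (Equiv.swap b c)⁻¹) *
              (Equiv.swap b c * Equiv.swap a b * (Equiv.swap b c)⁻¹) := by group
          _ = _ := by rw [e3, e4]
      calc π * Equiv.swap b c * (Equiv.swap a b * Equiv.swap a c)⁻¹ * (π * Equiv.swap b c)⁻¹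
          = π * (Equiv.swap b c * (Equiv.swap a b * Equiv.swap a c)⁻¹ * (Equiv.swap b c)⁻¹) * π⁻¹ := by group
        _ = _ := by rw [e2]
    rw [← e1]; exact h4

theorem ncard_preimage {Ω Q : Type*} [Finite Ω] [Finite Q] (π : Ω → Q) (b : ℕ)
    (hb : ∀ q, (π ⁻¹' {q}).ncard = b) (S : Set Q) : (π ⁻¹' S).ncard = S.ncard * b := by
  classical
  haveI := Fintype.ofFinite Ω
  haveI := Fintype.ofFinite Q
  have h1 := Finset.card_eq_sum_card_fiberwise (f := π) (s := (π ⁻¹' S).toFinset) (t := S.toFinset)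
    (fun x hx => by simpa using hx)
  rw [Set.ncard_eq_toFinset_card', h1, Set.ncard_eq_toFinset_card', ← smul_eq_mul, ← Finset.sum_const]
  apply Finset.sum_congr rfl
  intro q hq
  rw [← hb q, Set.ncard_eq_toFinset_card']
  congr 1
  ext x
  simp only [Finset.mem_filter, Set.mem_toFinset, Set.mem_preimage, Set.mem_singleton_iff]
  constructor
  · exact fun h => h.2
  · intro h
    refine ⟨?_, h⟩
    rw [h]; exact Set.mem_toFinset.1 hq

theorem qp_main (N : ℕ) : ∀ (G : Type u) [Group G] (Ω : Type v) [MulAction G Ω] [FaithfulSMul G Ω]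
    [Fintype Ω] [DecidableEq Ω], Nat.card Ω ≤ N →
    (∀ N : Subgroup G, N.Normal → N ≠ ⊥ → IsPretransitive N Ω) →
    ∀ Γ : Set Ω, 1 < Γ.ncard → 2 * Γ.ncard < Nat.card Ω → JS G Γ →
    ∀ σ : Equiv.Perm Ω, Equiv.Perm.sign σ = 1 → ∃ x : G, (MulAction.toPerm x : Equiv.Perm Ω) = σ := by
  induction N with
  | zero =>
    intro G _ Ω _ _ _ _ hN hqp Γ h1 h2
    omega
  | succ N ih =>
    intro G _ Ω _ _ _ _ hN hqp Γ h1 h2 hJ
    by_cases hprim : IsPreprimitive G Ω
    · exact marggraf hprim h1 h2 hJ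
    exfalso
    classical
    obtain ⟨γ1, hγ1, γ2, hγ2, hγ⟩ := (Set.one_lt_ncard (Set.toFinite _)).1 h1
    obtain ⟨h0, hh0f, hh0e⟩ := hJ γ1 hγ1 γ2 hγ2
    have hh01 : h0 ≠ 1 := by
      rintro rfl
      rw [one_smul] at hh0e
      exact hγ hh0e
    have htop : (⊤ : Subgroup G) ≠ ⊥ := by
      intro h
      have : h0 ∈ (⊥ : Subgroup G) := by rw [← h]; trivial
      exact hh01 (by simpa using this)
    have htr : IsPretransitive G Ω := by
      have := hqp ⊤ inferInstance htop
      refine ⟨fun x y => ?_⟩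
      obtain ⟨g, hg⟩ := this.exists_smul_eq x y
      exact ⟨g, hg⟩
    obtain ⟨B0, hB0, hB0t⟩ : ∃ B : Set Ω, IsBlock G B ∧ ¬ IsTrivialBlock B := by
      by_contra hcon
      push Not at hcon
      exact hprim { toIsPretransitive := htr, isTrivialBlock_of_isBlock := fun {B} hB => hcon B hB }
    rw [IsTrivialBlock] at hB0t
    push Not at hB0t
    obtain ⟨hB0s, hB0u⟩ := hB0t
    obtain ⟨b0, hb0, b1, hb1, hb01⟩ := hB0s
    -- block system
    have hcover : ∀ x : Ω, ∃ q : orbit G B0, x ∈ q.1 := by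
      intro x
      obtain ⟨g, hg⟩ := htr.exists_smul_eq b0 x
      exact ⟨⟨g • B0, mem_orbit _ _⟩, by rw [← hg]; exact Set.smul_mem_smul_set hb0⟩
    have huniq : ∀ q1 q2 : orbit G B0, ∀ x, x ∈ q1.1 → x ∈ q2.1 → q1 = q2 := by
      rintro ⟨_, g1, rfl⟩ ⟨_, g2, rfl⟩ x hx1 hx2
      apply Subtype.ext
      by_contra hne
      exact Set.disjoint_left.1 (hB0 hne) hx1 hx2
    choose π hπ using hcover
    have hπeq : ∀ x (q : orbit G B0), x ∈ q.1 → π x = q := fun x q hx => huniq _ _ x (hπ x) hx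
    have hπsmul : ∀ (g : G) (x : Ω), π (g • x) = g • π x := by
      intro g x
      apply hπeq
      rw [orbit.coe_smul]
      exact Set.smul_mem_smul_set (hπ x)
    have hfib : ∀ q : orbit G B0, π ⁻¹' {q} = q.1 := by
      intro q
      ext x
      constructor
      · intro hx
        have : π x = q := hx
        rw [← this]; exact hπ x
      · intro hx; exact hπeq x q hx
    have hbcard : ∀ q : orbit G B0, (π ⁻¹' {q}).ncard = B0.ncard := by
      intro q
      rw [hfib]
      obtain ⟨_, g, rfl⟩ := q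
      exact Set.ncard_smul_set g B0
    have hb2 : 1 < B0.ncard := (Set.one_lt_ncard (Set.toFinite _)).2 ⟨b0, hb0, b1, hb1, hb01⟩
    have hπsurj : Function.Surjective π := by
      intro q
      have h3 : 0 < (π ⁻¹' {q}).ncard := by rw [hbcard]; omega
      rw [Set.ncard_pos (Set.toFinite _)] at h3
      obtain ⟨x, hx⟩ := h3
      exact ⟨x, hx⟩
    have hcardQ : Nat.card Ω = Nat.card (orbit G B0) * B0.ncard := by
      have := ncard_preimage π B0.ncard hbcard Set.univ
      rwa [Set.preimage_univ, Set.ncard_univ, Set.ncard_univ] at this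
    -- the kernel is trivial
    have hkerQ : ∀ M : Subgroup G, M.Normal → (∀ g ∈ M, ∀ q : orbit G B0, g • q = q) → M = ⊥ := by
      intro M hM hMf
      by_contra hne
      have h3 := hqp M hM hne
      apply hB0u
      rw [Set.eq_univ_iff_forall]
      intro x
      obtain ⟨⟨g, hg⟩, hgx⟩ := h3.exists_smul_eq b0 x
      have h4 : π x = π b0 := by
        rw [← hgx]
        change π (g • b0) = π b0
        rw [hπsmul, hMf g hg]
      have h5 : π b0 = ⟨B0, mem_orbit_self _⟩ := hπeq b0 _ hb0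
      have h6 := hπ x
      rw [h4, h5] at h6
      exact h6
    have hker1 : ∀ g : G, (∀ q : orbit G B0, g • q = q) → g = 1 := by
      intro g hg
      have h3 := hkerQ (MulAction.toPermHom G (orbit G B0)).ker inferInstance (by
        intro x hx q
        rw [MonoidHom.mem_ker] at hx
        have := congrArg (fun f : Equiv.Perm (orbit G B0) => f q) hx
        exact this)
      have h4 : g ∈ (MulAction.toPermHom G (orbit G B0)).ker := by
        rw [MonoidHom.mem_ker]
        ext q : 1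
        exact hg q
      rw [h3, Subgroup.mem_bot] at h4
      exact h4
    -- no block contains Γ
    have hnoq : ∀ q : orbit G B0, ¬ Γ ⊆ q.1 := by
      intro q hq
      apply hh01
      apply hker1
      intro q'
      by_cases hqq : q' = q
      · subst hqq
        apply huniq _ _ γ2 _ (hq hγ2)
        rw [orbit.coe_smul, ← hh0e]
        exact Set.smul_mem_smul_set (hq hγ1)
      · obtain ⟨x, hx⟩ := hπsurj q'
        have hxΓ : x ∉ Γ := by
          intro hxΓ
          exact hqq (hx.symm.trans (hπeq x q (hq hxΓ)))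
        rw [← hx, ← hπsmul, hh0f x hxΓ]
    have hunion : ∀ q : orbit G B0, ∀ y ∈ q.1, y ∈ Γ → q.1 ⊆ Γ := by
      intro q y hy hyΓ z hz
      by_contra hzΓ
      apply hnoq q
      intro y' hy'
      obtain ⟨g, hg1, hg2⟩ := hJ y hyΓ y' hy'
      have h3 : g • q = q := by
        rw [← hπeq z q hz, ← hπsmul, hg1 z hzΓ]
      rw [← h3, orbit.coe_smul, ← hg2]
      exact Set.smul_mem_smul_set hy
    set S : Set (orbit G B0) := π '' Γ with hS
    have hpre : π ⁻¹' S = Γ := by
      ext x
      constructor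
      · rintro ⟨y, hy, hyx⟩
        exact hunion (π x) y (by rw [← hyx]; exact hπ y) hy (hπ x)
      · intro hx; exact ⟨x, hx, rfl⟩
    have hcardΓ : Γ.ncard = S.ncard * B0.ncard := by
      have := ncard_preimage π B0.ncard hbcard S
      rwa [hpre] at this
    have hS2 : 2 * S.ncard < Nat.card (orbit G B0) := by
      rw [hcardΓ, hcardQ, ← mul_assoc] at h2
      exact lt_of_mul_lt_mul_right h2 (Nat.zero_le _)
    have hS1 : 1 < S.ncard := by
      by_contra hcon
      have h3 : S.ncard ≤ 1 := by omega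
      rw [Set.ncard_le_one (Set.toFinite _)] at h3
      apply hnoq (π γ1)
      intro y hy
      rw [h3 (π γ1) ⟨γ1, hγ1, rfl⟩ (π y) ⟨y, hy, rfl⟩]
      exact hπ y
    have hJS : JS G S := by
      rintro _ ⟨x, hx, rfl⟩ _ ⟨y, hy, rfl⟩
      obtain ⟨g, hg1, hg2⟩ := hJ x hx y hy
      refine ⟨g, ?_, by rw [← hπsmul, hg2]⟩
      intro q hq
      obtain ⟨z, rfl⟩ := hπsurj q
      have hz : z ∉ Γ := fun hz => hq ⟨z, hz, rfl⟩
      rw [← hπsmul, hg1 z hz]
    haveI hfaith : FaithfulSMul G (orbit G B0) := by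
      constructor
      intro g1 g2 hg
      have := hker1 (g2⁻¹ * g1) (fun q => by rw [mul_smul, hg q, inv_smul_smul])
      exact (inv_mul_eq_one.1 this).symm
    have hqpQ : ∀ M : Subgroup G, M.Normal → M ≠ ⊥ → IsPretransitive M (orbit G B0) := by
      intro M hM hne
      have h3 := hqp M hM hne
      constructor
      intro q1 q2
      obtain ⟨x, rfl⟩ := hπsurj q1
      obtain ⟨y, rfl⟩ := hπsurj q2
      obtain ⟨⟨g, hg⟩, hgx⟩ := h3.exists_smul_eq x y
      refine ⟨⟨g, hg⟩, ?_⟩
      rw [← hgx]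
      exact (hπsmul g x).symm
    haveI : Fintype (orbit G B0) := Fintype.ofFinite _
    have hQpos : 0 < Nat.card (orbit G B0) := by omega
    have hlt : Nat.card (orbit G B0) < Nat.card Ω := by
      rw [hcardQ]
      exact lt_mul_of_one_lt_right hQpos hb2
    have halt := ih G (orbit G B0) (by omega) hqpQ S hS1 hS2 hJS
    -- a block outside Γ
    have hcomplS := Set.ncard_add_ncard_compl S (Set.toFinite _) (Set.toFinite _)
    obtain ⟨q0, D, E, hq0, hD, hE, hqD, hqE, hDE⟩ : ∃ q0 D E : orbit G B0, q0 ∉ S ∧ D ∉ S ∧ E ∉ S ∧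
        q0 ≠ D ∧ q0 ≠ E ∧ D ≠ E := by
      have h3 : 2 < Sᶜ.ncard := by omega
      rw [Set.two_lt_ncard_iff (Set.toFinite _)] at h3
      obtain ⟨q0, D, E, h⟩ := h3
      exact ⟨q0, D, E, h⟩
    obtain ⟨C, hC, C', hC', hCC'⟩ := (Set.one_lt_ncard (Set.toFinite _)).1 hS1
    obtain ⟨x, hxΓ, hxC⟩ := hC
    obtain ⟨y, hyΓ, hyC'⟩ := hC'
    obtain ⟨l, hl1, hl2⟩ := hJ x hxΓ y hyΓ
    have hlC : l • C = C' := by rw [← hxC, ← hyC', ← hπsmul, hl2]
    have hlfix : ∀ q : orbit G B0, q ∉ S → l • q = q := by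
      intro q hq
      obtain ⟨z, rfl⟩ := hπsurj q
      rw [← hπsmul, hl1 z (fun hz => hq ⟨z, hz, rfl⟩)]
    have hCS : C ∈ S := ⟨x, hxΓ, hxC⟩
    have hC'S : C' ∈ S := ⟨y, hyΓ, hyC'⟩
    have hCq0 : C ≠ q0 := by rintro rfl; exact hq0 hCS
    have hC'q0 : C' ≠ q0 := by rintro rfl; exact hq0 hC'S
    have hCD : C ≠ D := by rintro rfl; exact hD hCS
    have hC'D : C' ≠ D := by rintro rfl; exact hD hC'S
    have hCE : C ≠ E := by rintro rfl; exact hE hCS
    have hC'E : C' ≠ E := by rintro rfl; exact hE hC'S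
    -- the subgroup fixing `q0` pointwise
    let K0 : Subgroup G := fixingSubgroup G q0.1
    have hK0 : ∀ g : G, g ∈ K0 ↔ ∀ z ∈ q0.1, g • z = z := fun g => mem_fixingSubgroup_iff G
    have hlK0 : l ∈ K0 := by
      rw [hK0]
      intro z hz
      apply hl1
      intro hzΓ
      apply hq0
      exact ⟨z, hzΓ, hπeq z q0 hz⟩
    let P : Subgroup (Equiv.Perm (orbit G B0)) := K0.map (MulAction.toPermHom G (orbit G B0))
    have hPconj : ∀ τ : Equiv.Perm (orbit G B0), Equiv.Perm.sign τ = 1 → τ q0 = q0 → ∀ ρ ∈ P,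
        τ * ρ * τ⁻¹ ∈ P := by
      intro τ hτ hτq ρ hρ
      obtain ⟨g, hg⟩ := halt τ hτ
      obtain ⟨k, hk, hkρ⟩ := hρ
      have hgq : g • q0 = q0 := by
        have := congrArg (fun f : Equiv.Perm (orbit G B0) => f q0) hg
        exact this.trans hτq
      refine ⟨g * k * g⁻¹, ?_, ?_⟩
      · change g * k * g⁻¹ ∈ K0
        rw [hK0]
        intro z hz
        have hz' : g⁻¹ • z ∈ q0.1 := by
          rw [← Set.mem_smul_set_iff_inv_smul_mem, ← orbit.coe_smul, hgq]
          exact hz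
        rw [mul_smul, mul_smul, (hK0 k).1 hk _ hz', smul_inv_smul]
      · have e1 : MulAction.toPermHom G (orbit G B0) g = τ := hg
        rw [map_mul, map_mul, map_inv, e1, hkρ]
    let R := {q : orbit G B0 // q ≠ q0}
    let P' : Subgroup (Equiv.Perm R) := P.comap Equiv.Perm.ofSubtype
    have hofq : ∀ τ : Equiv.Perm R, Equiv.Perm.ofSubtype τ q0 = q0 := by
      intro τ
      exact Equiv.Perm.ofSubtype_apply_of_not_mem τ (fun h => h rfl)
    have hP'conj : ∀ τ ∈ alternatingGroup R, ∀ ρ ∈ P', τ * ρ * τ⁻¹ ∈ P' := by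
      intro τ hτ ρ hρ
      change Equiv.Perm.ofSubtype (τ * ρ * τ⁻¹) ∈ P
      rw [map_mul, map_mul, map_inv]
      apply hPconj _ _ (hofq τ) _ hρ
      rw [Equiv.Perm.sign_ofSubtype]
      exact Equiv.Perm.mem_alternatingGroup.1 hτ
    have h3c : Equiv.swap (⟨D, hqD.symm⟩ : R) ⟨C', hC'q0⟩ * Equiv.swap (⟨D, hqD.symm⟩ : R) ⟨C, hCq0⟩ ∈ P' := by
      change Equiv.Perm.ofSubtype _ ∈ P
      rw [map_mul, Equiv.Perm.ofSubtype_swap_eq, Equiv.Perm.ofSubtype_swap_eq]
      change Equiv.swap D C' * Equiv.swap D C ∈ P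
      set lam : Equiv.Perm (orbit G B0) := MulAction.toPerm l with hlam
      have hlamP : lam ∈ P := ⟨l, hlK0, rfl⟩
      have hlamC : lam C = C' := hlC
      have hlamD : lam D = D := hlfix D hD
      have hlamE : lam E = E := hlfix E hE
      set t : Equiv.Perm (orbit G B0) := Equiv.swap D C * Equiv.swap D E with ht
      have hts : Equiv.Perm.sign t = 1 := by
        rw [ht, Equiv.Perm.sign_mul, Equiv.Perm.sign_swap hCD.symm, Equiv.Perm.sign_swap hDE]
        norm_num
      have htq : t q0 = q0 := by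
        rw [ht, Equiv.Perm.mul_apply, Equiv.swap_apply_of_ne_of_ne hqD hqE,
          Equiv.swap_apply_of_ne_of_ne hqD hCq0.symm]
      have h4 := hPconj t hts htq _ (P.inv_mem hlamP)
      have h5 := P.mul_mem hlamP h4
      have e1 : lam * (t * lam⁻¹ * t⁻¹) = Equiv.swap D C' * Equiv.swap D C := by
        have e2 : lam * Equiv.swap D C = Equiv.swap D C' * lam := by
          rw [Equiv.mul_swap_eq_swap_mul, hlamC, hlamD]
        have e3 : lam * Equiv.swap D E = Equiv.swap D E * lam := by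
          rw [Equiv.mul_swap_eq_swap_mul, hlamE, hlamD]
        have e4 : lam * t * lam⁻¹ = Equiv.swap D C' * Equiv.swap D E := by
          rw [ht, ← mul_assoc, e2, mul_assoc, mul_assoc, ← mul_assoc lam, e3]
          group
        have e5 : t⁻¹ = Equiv.swap D E * Equiv.swap D C := by
          rw [ht, mul_inv_rev, Equiv.swap_inv, Equiv.swap_inv]
        rw [← mul_assoc, ← mul_assoc, e4, e5]
        rw [mul_assoc, ← mul_assoc (Equiv.swap D E), Equiv.swap_mul_self, one_mul]
      rw [← e1]; exact h5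
    have hle := alt_le_of P' hP'conj (a := ⟨D, hqD.symm⟩) (b := ⟨C', hC'q0⟩) (c := ⟨C, hCq0⟩)
      (fun h => hC'D (congrArg Subtype.val h).symm) (fun h => hCD (congrArg Subtype.val h).symm)
      (fun h => hCC' (congrArg Subtype.val h).symm) h3c
    -- the even part is transitive
    let A : Subgroup G := (Equiv.Perm.sign.comp (MulAction.toPermHom G (orbit G B0))).ker
    have hAn : A.Normal := MonoidHom.normal_ker _
    have hA1 : A ≠ ⊥ := by
      intro hA
      have hts : Equiv.Perm.sign (Equiv.swap D C * Equiv.swap D E) = 1 := by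
        rw [Equiv.Perm.sign_mul, Equiv.Perm.sign_swap hCD.symm, Equiv.Perm.sign_swap hDE]
        norm_num
      obtain ⟨g, hg⟩ := halt _ hts
      have h3 : g ∈ A := by
        change g ∈ (Equiv.Perm.sign.comp (MulAction.toPermHom G (orbit G B0))).ker
        rw [MonoidHom.mem_ker, MonoidHom.comp_apply]
        change Equiv.Perm.sign (MulAction.toPerm g : Equiv.Perm (orbit G B0)) = 1
        rw [hg]; exact hts
      rw [hA, Subgroup.mem_bot] at h3
      rw [h3] at hg
      have h4 := congrArg (fun f : Equiv.Perm (orbit G B0) => f E) hg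
      change (1 : G) • E = (Equiv.swap D C * Equiv.swap D E) E at h4
      rw [one_smul, Equiv.Perm.mul_apply, Equiv.swap_apply_right, Equiv.swap_apply_left] at h4
      exact hCE h4.symm
    have hAt := hqp A hAn hA1
    have hq0c : 1 < (π ⁻¹' {q0}).ncard := by rw [hbcard]; exact hb2
    rw [hfib] at hq0c
    obtain ⟨z1, hz1, z2, hz2, hz12⟩ := (Set.one_lt_ncard (Set.toFinite _)).1 hq0c
    obtain ⟨⟨g, hg⟩, hgz⟩ := hAt.exists_smul_eq z1 z2
    change g • z1 = z2 at hgz
    have hgq : g • q0 = q0 := by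
      rw [← hπeq z1 q0 hz1, ← hπsmul, hgz, hπeq z1 q0 hz1]
      exact hπeq z2 q0 hz2
    have hgs : Equiv.Perm.sign (MulAction.toPerm g : Equiv.Perm (orbit G B0)) = 1 := by
      have : g ∈ (Equiv.Perm.sign.comp (MulAction.toPermHom G (orbit G B0))).ker := hg
      rw [MonoidHom.mem_ker, MonoidHom.comp_apply] at this
      exact this
    set σ : Equiv.Perm (orbit G B0) := MulAction.toPerm g with hσ
    have hσq : σ q0 = q0 := hgq
    have hσR : ∀ q : orbit G B0, q ≠ q0 ↔ σ q ≠ q0 := by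
      intro q
      rw [not_iff_not]
      constructor
      · intro h; rw [h, hσq]
      · intro h; exact σ.injective (h.trans hσq.symm)
    have hsub : Equiv.Perm.ofSubtype (σ.subtypePerm (p := fun q => q ≠ q0) (fun q => (hσR q).symm)) = σ := by
      apply Equiv.Perm.ofSubtype_subtypePerm
      intro q hq
      rintro rfl
      exact hq hσq
    have hmem : (σ.subtypePerm (p := fun q => q ≠ q0) (fun q => (hσR q).symm) : Equiv.Perm R) ∈ P' := by
      apply hle
      rw [Equiv.Perm.mem_alternatingGroup, ← Equiv.Perm.sign_ofSubtype, hsub]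
      exact hgs
    have hmem2 : σ ∈ P := by
      have : Equiv.Perm.ofSubtype (σ.subtypePerm (p := fun q => q ≠ q0) (fun q => (hσR q).symm)) ∈ P := hmem
      rwa [hsub] at this
    obtain ⟨k, hk, hkσ⟩ := hmem2
    have hkg : k = g := by
      have h3 := hker1 (g⁻¹ * k) (fun q => by
        have h4 := congrArg (fun f : Equiv.Perm (orbit G B0) => f q) hkσ
        change k • q = g • q at h4
        rw [mul_smul, h4, inv_smul_smul])
      exact (inv_mul_eq_one.1 h3).symm
    rw [hkg] at hk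
    have h3 := (hK0 g).1 hk z1 hz1
    exact hz12 (h3.symm.trans hgz)

end Cfsg.Agent.H18.MG
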