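import Cfsg.Agent.H18_NF3

set_option autoImplicit false

/-! Groups without `SL₂(p)`-sections in their `p`-local automizers: normalizer `p`-stability and the centric radical kernel. -/

namespace Cfsg.Agent.H18.NF

open Cfsg Subgroup Cfsg.Agent.H13.Syl Cfsg.Agent.H13.Alp Cfsg.Agent.H13.CF Cfsg.Agent.H13.Sec Cfsg.Agent.H12.ZJ Cfsg.Agent.H18.ZJF
open scoped commutatorElement

universe u v w

theorem section_iso {G : Type u} [Group G] {T : Type v} [Group T] {L Cn : Subgroup G} (hLC : L ≤ normalizer (Cn : Set G))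
    (φ : L →* T) (hφ : Function.Surjective φ) (h1 : ∀ g : L, g.1 ∈ Cn → φ g = 1) :
    ∃ (_ : (((φ.ker).map L.subtype ⊔ Cn).subgroupOf (L ⊔ Cn)).Normal),
      Nonempty ((↥(L ⊔ Cn) ⧸ ((φ.ker).map L.subtype ⊔ Cn).subgroupOf (L ⊔ Cn)) ≃* T) := by
  have hdec : ∀ h : ↥(L ⊔ Cn), ∃ l : L, ∃ c ∈ Cn, h.1 = l.1 * c := by
    intro h
    obtain ⟨l, hl, c, hc, e⟩ := (H2.Card.mem_sup_iff hLC).1 h.2
    exact ⟨⟨l, hl⟩, c, hc, e.symm⟩
  choose l c hc hlc using hdec
  have hwd : ∀ (h : ↥(L ⊔ Cn)) (l' : L) (c' : G), c' ∈ Cn → h.1 = l'.1 * c' → φ (l h) = φ l' := by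
    intro h l' c' hc' e
    have h2 : φ (l'⁻¹ * l h) = 1 := h1 _ (by
      have e1 : (l h).1 = h.1 * (c h)⁻¹ := by rw [hlc h]; group
      have h3 : (l'⁻¹ * l h).1 = c' * (c h)⁻¹ := by
        show l'.1⁻¹ * (l h).1 = _
        rw [e1, e]; group
      rw [h3]; exact mul_mem hc' (inv_mem (hc h)))
    rw [map_mul, map_inv, inv_mul_eq_one] at h2
    exact h2.symm
  let Φ : ↥(L ⊔ Cn) →* T := MonoidHom.mk' (fun h => φ (l h)) (by
    intro a b
    have := hwd (a * b) (l a * l b) (((l b).1⁻¹ * c a * (l b).1) * c b) (by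
      have h2 := (mem_normalizer_iff.1 (inv_mem (hLC (l b).2)) (c a)).1 (hc a)
      rw [inv_inv] at h2
      exact mul_mem h2 (hc b)) (by
      show a.1 * b.1 = (l a).1 * (l b).1 * _
      rw [hlc a, hlc b]; group)
    rw [this, map_mul])
  have hker : Φ.ker = ((φ.ker).map L.subtype ⊔ Cn).subgroupOf (L ⊔ Cn) := by
    ext h
    rw [MonoidHom.mem_ker, mem_subgroupOf]
    constructor
    · intro h0
      rw [hlc h]
      exact mul_mem (mem_sup_left ⟨l h, h0, rfl⟩) (mem_sup_right (hc h))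
    · intro h0
      have hle : (φ.ker).map L.subtype ≤ normalizer (Cn : Set G) := (map_subtype_le _).trans hLC
      obtain ⟨_, ⟨l', hl', rfl⟩, c', hc', e⟩ := (H2.Card.mem_sup_iff hle).1 h0
      show φ (l h) = 1
      rw [hwd h l' c' hc' e.symm]; exact hl'
  have hs : Function.Surjective Φ := by
    intro t
    obtain ⟨g, rfl⟩ := hφ t
    refine ⟨⟨g.1, mem_sup_left g.2⟩, ?_⟩
    exact hwd _ g 1 (one_mem _) (by simp)
  rw [← hker]
  exact ⟨inferInstance, ⟨QuotientGroup.quotientKerEquivOfSurjective Φ hs⟩⟩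

variable {G : Type u} [Group G] [Finite G] {p : ℕ} [hp : Fact p.Prime]

theorem stable_of_free (hp2 : p ≠ 2)
    (hfree : ∀ Q : Subgroup G, IsPGroup p ↥Q → ¬ ∃ (H K : Subgroup G) (_ : (K.subgroupOf H).Normal),
      Subgroup.centralizer (Q : Set G) ≤ K ∧ K ≤ H ∧ H ≤ Subgroup.normalizer (Q : Set G) ∧
      Nonempty ((↥H ⧸ K.subgroupOf H) ≃* Matrix.SpecialLinearGroup (Fin 2) (ZMod p))) : IsNormalizerPStable p G := by
  rw [H13.KT.stable_iff]
  intro P hP g hg hq
  by_contra hn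
  obtain ⟨C, L, φ, R, h1, -⟩ := CQ.cfg_of_unstable hp2 hP (Z := ⊥) bot_le hg (by
    intro d hd
    rw [mem_bot, commutatorElement_eq_one_iff_mul_comm, commutatorElement_def, ← mul_inv_eq_iff_eq_mul]
    exact H18.QPair.conj_fix_of_quad hq hd) (by
    rintro ⟨K, hxK, hKY, hYK, hK⟩
    apply hn
    refine ⟨K, hxK, hKY, hYK, ?_⟩
    intro k hk
    obtain ⟨n, hn⟩ := hK k hk
    refine ⟨n, mem_centralizer_iff.2 ?_⟩
    intro v hv
    have h2 := hn v hv
    rw [mem_bot, commutatorElement_eq_one_iff_mul_comm] at h2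
    exact h2.symm)
  have hDp : IsPGroup p h1.D := by
    rintro ⟨d, hd⟩
    obtain ⟨v, hv⟩ := h1.mem_D.1 hd
    obtain ⟨k, hk⟩ := h1.pC ⟨_, h1.pow_p hv⟩
    refine ⟨k + 1, Subtype.ext ?_⟩
    have h2 : (d ^ p) ^ p ^ k = 1 := congrArg Subtype.val hk
    show d ^ p ^ (k + 1) = 1
    rw [pow_succ', pow_mul]; exact h2
  have hLD : L ≤ normalizer (h1.D : Set G) := h1.L_le
  have hCN : centralizer (h1.D : Set G) ≤ normalizer (h1.D : Set G) := centralizer_le_normalizer _
  have hLC : L ≤ normalizer ((centralizer (h1.D : Set G) : Subgroup G) : Set G) := by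
    intro x hx
    have h2 := hLD hx
    rw [mem_normalizer_iff_cj] at h2 ⊢
    rw [cj_centralizer, h2]
  obtain ⟨hN, e⟩ := section_iso hLC φ h1.surj (by
    intro g hg
    apply Subtype.ext
    apply Matrix.toLin'.injective
    apply LinearMap.ext
    intro v
    rw [Matrix.toLin'_apply, Matrix.toLin'_apply, Matrix.SpecialLinearGroup.coe_one, Matrix.one_mulVec]
    obtain ⟨d, hd⟩ := h1.ex v
    have h2 := h1.act g hd
    have h3 : g.1 * d * g.1⁻¹ = d := by
      rw [← (mem_centralizer_iff.1 hg) d (h1.mem_D.2 ⟨v, hd⟩), mul_inv_cancel_right]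
    rw [h3] at h2
    exact h1.uniq h2 hd)
  exact hfree h1.D hDp ⟨_, _, hN, le_sup_right, sup_le_sup_right (map_subtype_le _) _, sup_le hLD hCN, e⟩

omit hp [Finite G] in
theorem centralizer_subgroupOf {Q N : Subgroup G} (hQN : Q ≤ N) :
    centralizer ((Q.subgroupOf N : Subgroup N) : Set N) = (centralizer (Q : Set G)).subgroupOf N := by
  ext x
  rw [mem_subgroupOf, mem_centralizer_iff, mem_centralizer_iff]
  constructor
  · intro h q hq
    exact congrArg Subtype.val (h ⟨q, hQN hq⟩ hq)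
  · intro h q hq
    exact Subtype.ext (h q.1 hq)

theorem max_radical (hp2 : p ≠ 2) (hst : IsNormalizerPStable p G) {S Q : Subgroup G} (hS : IsSylIn p S ⊤)
    (hQ : NormF S Q) (hmax : ∀ Q', NormF S Q' → Nat.card Q' ≤ Nat.card Q) {X : Subgroup G} (hXN : X ≤ normalizer (Q : Set G))
    (hNX : normalizer (Q : Set G) ≤ normalizer (X : Set G)) (hX : Q ⊔ centralizer (Q : Set G) ≤ X)
    (hk : ∃ k, (Q ⊔ centralizer (Q : Set G)).relIndex X = p ^ k) : X = Q ⊔ centralizer (Q : Set G) := by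
  have hmc := max_constrained hp2 hst hS hQ hmax
  obtain ⟨hQS, hSQ, hQc⟩ := id hQ
  have hCN : centralizer (Q : Set G) ≤ normalizer (Q : Set G) := centralizer_le_normalizer _
  have hQN : Q ≤ normalizer (Q : Set G) := le_normalizer
  have hS₁ : IsSylIn p (S.subgroupOf (normalizer (Q : Set G))) ⊤ := H13.WC.isSylIn_subgroupOf (hS.mono hSQ le_top)
  have hQn : (Q.subgroupOf (normalizer (Q : Set G))).Normal := inferInstance
  have hXn : (X.subgroupOf (normalizer (Q : Set G))).Normal := by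
    constructor
    intro x hx g
    exact (mem_normalizer_iff.1 (hNX g.2) x.1).1 hx
  have hcs := centralizer_subgroupOf hQN
  have hsup : Q.subgroupOf (normalizer (Q : Set G)) ⊔ centralizer ((Q.subgroupOf (normalizer (Q : Set G)) : Subgroup _) : Set (normalizer (Q : Set G))) =
      (Q ⊔ centralizer (Q : Set G)).subgroupOf (normalizer (Q : Set G)) := by
    rw [hcs, subgroupOf_sup hQN hCN]
  have h1 := radical_normal (S := S.subgroupOf (normalizer (Q : Set G))) (Q := Q.subgroupOf (normalizer (Q : Set G)))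
    (X := X.subgroupOf (normalizer (Q : Set G))) hS₁ (fun q hq => hQS hq) (by
      rw [hcs]
      rintro s ⟨hs, hsc⟩
      exact hmc ⟨hs, hsc⟩) (by
      rw [hsup]
      exact fun x hx => hX hx) (by
      rw [hsup, relIndex_subgroupOf hXN]
      exact hk)
  have h2 := hmax _ (normF_lift hQ h1)
  have h3 : Q = Q ⊔ (S.subgroupOf (normalizer (Q : Set G)) ⊓ X.subgroupOf (normalizer (Q : Set G))).map (normalizer (Q : Set G)).subtype :=
    eq_of_le_of_card_ge le_sup_left h2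
  have h4 : S ⊓ X ≤ Q := by
    rintro x ⟨hxS, hxX⟩
    rw [h3]
    exact mem_sup_right ⟨⟨x, hXN hxX⟩, ⟨hxS, hxX⟩, rfl⟩
  have h5 : IsSylIn p (S ⊓ X) X := (hS.mono hSQ le_top).inf_of_le_normalizer hXN hNX
  obtain ⟨k, hk⟩ := hk
  have h6 : ¬ p ∣ p ^ k := by
    intro h
    apply h5.2.2
    rw [← relIndex_mul_relIndex (S ⊓ X) (Q ⊔ centralizer (Q : Set G)) X (h4.trans le_sup_left) hX, hk]
    exact h.mul_left _
  cases k with
  | zero =>
    rw [pow_zero, relIndex_eq_one] at hk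
    exact le_antisymm hk hX
  | succ k => exact absurd (dvd_pow_self p (Nat.succ_ne_zero k)) h6

end Cfsg.Agent.H18.NF
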