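import Mathlib
import Cfsg.Agent.H18_SM1
import Cfsg.Agent.H13_NPC
import Cfsg.Agent.H2_Fusion3
import Cfsg.Agent.H18_NF3
import Cfsg.Agent.H18_NPC
import Cfsg.Agent.H12_Core
import Cfsg.Agent.H2_Good2
import Cfsg.Prelude.Def_TwoFusion

/-!
# Normal `p`-complements and strongly closed subgroups
-/

set_option autoImplicit false
set_option linter.unusedSectionVars false
set_option linter.unusedSimpArgs false
set_option linter.style.haveILetI false

namespace Cfsg.Agent.H18.PN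

open Subgroup Pointwise
open scoped commutatorElement
open Cfsg.Agent.H13.Syl
open Cfsg.Agent.H18.BB (pGen pGen_le mem_pGen pGen_mono normalizer_le_normalizer_pGen mem_left)
open Cfsg.Agent.H18.KS (commutator_le_left_of mem_sup_of_norm le_normalizer_iff_conj)

universe u v

section basic
variable {G : Type u} [Group G]

/-- all `p'`-elements of `H` lie in one subgroup of order prime to `p` -/
def PN (p : ℕ) (H : Subgroup G) : Prop :=
  ∃ K : Subgroup G, (Nat.card K).Coprime p ∧ ∀ x ∈ H, (orderOf x).Coprime p → x ∈ K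

theorem PN.mono {p : ℕ} {H K : Subgroup G} (h : PN p H) (hK : K ≤ H) : PN p K := by
  obtain ⟨L, h1, h2⟩ := h
  exact ⟨L, h1, fun x hx => h2 x (hK hx)⟩

theorem PN.pGen [Finite G] {p : ℕ} {H : Subgroup G} (h : PN p H) : (Nat.card (BB.pGen p H)).Coprime p := by
  obtain ⟨L, h1, h2⟩ := h
  have : BB.pGen p H ≤ L := by
    rw [BB.pGen, closure_le]
    rintro x ⟨hx, ho⟩
    exact h2 x hx ho
  exact Nat.Coprime.coprime_dvd_left (Subgroup.card_dvd_of_le this) h1

theorem PN.of {p : ℕ} {H : Subgroup G} (h : (Nat.card (BB.pGen p H)).Coprime p) : PN p H :=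
  ⟨_, h, fun _ hx ho => mem_pGen hx ho⟩

theorem PN_iff [Finite G] {p : ℕ} [Fact p.Prime] {H : Subgroup G} : PN p H ↔ Cfsg.HasNormalPComplement p ↥H := by
  rw [H13.NPC.npc_iff_Op]
  exact ⟨fun h => h.pGen, fun h => PN.of h⟩

theorem PN_top_iff [Finite G] {p : ℕ} [Fact p.Prime] : PN p (⊤ : Subgroup G) ↔ Cfsg.HasNormalPComplement p G := by
  rw [PN_iff, H13.NPC.npc_top_iff]

theorem PN.comap {C : Type v} [Group C] [Finite G] {p : ℕ} {f : C →* G} (hf : Function.Injective f) {H : Subgroup C}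
    (h : PN p (H.map f)) : PN p H := by
  obtain ⟨L, h1, h2⟩ := h
  refine ⟨L.comap f, ?_, ?_⟩
  · exact Nat.Coprime.coprime_dvd_left (Subgroup.card_comap_dvd_of_injective L f hf) h1
  · intro x hx ho
    refine h2 (f x) ⟨x, hx, rfl⟩ ?_
    rwa [orderOf_injective f hf]

theorem PN.map_inj {C : Type v} [Group C] {p : ℕ} {f : C →* G} (hf : Function.Injective f) {H : Subgroup C}
    (h : PN p H) : PN p (H.map f) := by
  obtain ⟨L, h1, h2⟩ := h
  refine ⟨L.map f, ?_, ?_⟩
  · rwa [Subgroup.card_map_of_injective hf]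
  · rintro _ ⟨x, hx, rfl⟩ ho
    rw [orderOf_injective f hf] at ho
    exact ⟨x, h2 x hx ho, rfl⟩

theorem PN.map [Finite G] {Q : Type v} [Group Q] {p : ℕ} [Fact p.Prime] (f : G →* Q) {H : Subgroup G}
    (h : PN p H) : PN p (H.map f) := by
  obtain ⟨L, h1, h2⟩ := h
  refine ⟨L.map f, ?_, ?_⟩
  · exact Nat.Coprime.coprime_dvd_left (Subgroup.card_map_dvd L f) h1
  · rintro _ ⟨x, hx, rfl⟩ ho
    obtain ⟨k, hk1, hk2⟩ := SM.lift_coprime f x ho
    rw [← hk1]
    exact ⟨x ^ k, h2 _ (pow_mem hx k) hk2, rfl⟩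

theorem exists_pow_coprime [Finite G] {p : ℕ} [hp : Fact p.Prime] (x : G) : ∃ m : ℕ, (orderOf (x ^ (p ^ m))).Coprime p := by
  have hpos : orderOf x ≠ 0 := (orderOf_pos x).ne'
  obtain ⟨a, n, hn, hl⟩ := Nat.exists_eq_pow_mul_and_not_dvd hpos p hp.out.ne_one
  refine ⟨a, ?_⟩
  have h2 : orderOf (x ^ (p ^ a)) ∣ n := by
    apply orderOf_dvd_of_pow_eq_one
    rw [← pow_mul, ← hl, pow_orderOf_eq_one]
  exact Nat.Coprime.coprime_dvd_left h2 ((Nat.Prime.coprime_iff_not_dvd hp.out).mpr hn).symm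

theorem relIndex_pGen [Finite G] {p : ℕ} [hp : Fact p.Prime] (C : Subgroup G) : ∃ k, (BB.pGen p C).relIndex C = p ^ k := by
  have hn : ((BB.pGen p C).subgroupOf C).Normal :=
    (normal_subgroupOf_iff_le_normalizer (pGen_le p C)).mpr (le_normalizer.trans (normalizer_le_normalizer_pGen p C))
  have hpg : IsPGroup p (↥C ⧸ (BB.pGen p C).subgroupOf C) := by
    intro q
    obtain ⟨c, rfl⟩ := QuotientGroup.mk_surjective q
    obtain ⟨m, hm⟩ := exists_pow_coprime (p := p) (c : G)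
    refine ⟨m, ?_⟩
    rw [← QuotientGroup.mk_pow, QuotientGroup.eq_one_iff, mem_subgroupOf]
    exact mem_pGen (pow_mem c.2 _) hm
  obtain ⟨k, hk⟩ := IsPGroup.iff_card.mp hpg
  exact ⟨k, by rw [relIndex, index_eq_card]; exact hk⟩

/-- the Frattini-type criterion -/
theorem PN.frattini [Finite G] {p : ℕ} [hp : Fact p.Prime] {H C T : Subgroup G} (hCH : C ≤ H)
    (hHC : H ≤ normalizer (C : Set G)) (hC : PN p C) (hT : IsSylIn p T C)
    (hN : PN p (H ⊓ normalizer (T : Set G))) : PN p H := by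
  set K := BB.pGen p C with hK
  set N := H ⊓ normalizer (T : Set G) with hNdef
  set L := K ⊔ BB.pGen p N with hL
  have hHK : H ≤ normalizer (K : Set G) := hHC.trans (normalizer_le_normalizer_pGen p C)
  have hNK : N ≤ normalizer (K : Set G) := inf_le_left.trans hHK
  have hcard : (Nat.card L).Coprime p := by
    have h1 := H12.Core.card_sup_dvd (A := BB.pGen p N) (B := K) ((pGen_le p N).trans hNK)
    rw [sup_comm] at h1
    exact Nat.Coprime.coprime_dvd_left h1 (Nat.Coprime.mul_left hN.pGen hC.pGen)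
  refine ⟨L, hcard, fun x hx ho => ?_⟩
  have hNL : N ≤ normalizer (L : Set G) := by
    intro n hn
    rw [mem_normalizer_iff_cj, hL, cj_sup, cj_eq_of_mem_normalizer (hNK hn),
      cj_eq_of_mem_normalizer (normalizer_le_normalizer_pGen p N (le_normalizer hn))]
  refine mem_left (K := L) (P := N) hNL ?_ ?_ ho
  · intro n hn
    obtain ⟨m, hm⟩ := exists_pow_coprime (p := p) n
    exact ⟨m, (le_sup_right : BB.pGen p N ≤ L) (mem_pGen (pow_mem hn _) hm)⟩
  · obtain ⟨c, hc, m, hm, rfl⟩ := hT.frattini hCH hHC hx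
    have hTN : T ≤ N := le_inf (hT.1.trans hCH) le_normalizer
    have hsup : K ⊔ T = C := H18.NF.sup_eq_of_pow (pGen_le p C) hT (relIndex_pGen C)
    refine mul_mem ?_ ((le_sup_right : N ≤ _) hm)
    have : C ≤ L ⊔ N := by
      rw [← hsup]
      exact sup_le (le_sup_left.trans le_sup_left) (hTN.trans le_sup_right)
    exact this hc

end basic

section fx
variable {G : Type u} [Group G]

/-- a conjugation invariant set of `p`-elements which meets every `p`-subgroup in a subgroup -/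
structure FX (p : ℕ) (X : Set G) : Prop where
  conj : ∀ x ∈ X, ∀ g : G, g * x * g⁻¹ ∈ X
  sub : ∀ T : Subgroup G, IsPGroup p ↥T → ∃ D : Subgroup G, (D : Set G) = (T : Set G) ∩ X
  pel : ∀ x ∈ X, IsPGroup p ↥(zpowers x)

/-- `U` is a `p`-subgroup contained in `X` and contains its centralizer in `X` -/
structure Cen (p : ℕ) (X : Set G) (U : Subgroup G) : Prop where
  pg : IsPGroup p ↥U
  sub : ∀ u ∈ U, u ∈ X
  cen : ∀ x ∈ X, (∀ u ∈ U, u * x = x * u) → x ∈ U

theorem mem_of_eq {D T : Subgroup G} {X : Set G} (h : (D : Set G) = (T : Set G) ∩ X) {x : G} :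
    x ∈ D ↔ x ∈ T ∧ x ∈ X := by
  rw [← SetLike.mem_coe, h]; rfl

theorem FX.norm {p : ℕ} {X : Set G} (hX : FX p X) {D T : Subgroup G} (h : (D : Set G) = (T : Set G) ∩ X) :
    normalizer (T : Set G) ≤ normalizer (D : Set G) := by
  rw [le_normalizer_iff_conj]
  intro n hn x hx
  rw [mem_of_eq h] at hx ⊢
  exact ⟨(mem_normalizer_iff.mp hn x).mp hx.1, hX.conj x hx.2 n⟩

/-- a join of two `p`-subgroups contained in `X` is contained in `X` if it is a `p`-group -/
theorem FX.sup {p : ℕ} {X : Set G} (hX : FX p X) {U W : Subgroup G} (hU : ∀ u ∈ U, u ∈ X) (hW : ∀ w ∈ W, w ∈ X)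
    (hp : IsPGroup p ↥(U ⊔ W : Subgroup G)) : ∀ x ∈ U ⊔ W, x ∈ X := by
  obtain ⟨D, hD⟩ := hX.sub _ hp
  have h1 : U ⊔ W ≤ D := by
    refine sup_le ?_ ?_
    · intro u hu
      exact (mem_of_eq hD).mpr ⟨(le_sup_left : U ≤ _) hu, hU u hu⟩
    · intro w hw
      exact (mem_of_eq hD).mpr ⟨(le_sup_right : W ≤ _) hw, hW w hw⟩
  intro x hx
  exact ((mem_of_eq hD).mp (h1 hx)).2

theorem FX.subgroup {p : ℕ} {X : Set G} (hX : FX p X) (C : Subgroup G) : FX p {x : ↥C | (x : G) ∈ X} where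
  conj := fun x hx g => hX.conj _ hx _
  sub := by
    intro T hT
    obtain ⟨D, hD⟩ := hX.sub (T.map C.subtype) (hT.map _)
    refine ⟨D.subgroupOf C, ?_⟩
    ext x
    rw [SetLike.mem_coe, mem_subgroupOf, mem_of_eq hD]
    constructor
    · rintro ⟨⟨y, hy, hyx⟩, hx⟩
      have : y = x := Subtype.ext hyx
      rw [← this]
      exact ⟨hy, by rw [this]; exact hx⟩
    · rintro ⟨h1, h2⟩
      exact ⟨⟨x, h1, rfl⟩, h2⟩
  pel := by
    intro x hx
    have h1 : IsPGroup p ↥((zpowers (x : G)).comap C.subtype) := (hX.pel x hx).comap_of_injective _ C.subtype_injective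
    refine h1.to_le ?_
    rw [zpowers_le]
    exact mem_zpowers (x : G)

/-- the statement to be proved by induction -/
def Claim (p : ℕ) (G : Type u) [Group G] : Prop :=
  ∀ X : Set G, FX p X → (∀ U : Subgroup G, Cen p X U → PN p (normalizer (U : Set G))) → PN p (⊤ : Subgroup G)

theorem sub_case {p : ℕ} [Finite G] {X : Set G} (hX : FX p X) {C : Subgroup G} (hcl : Claim p ↥C)
    (h : ∀ W : Subgroup G, W ≤ C → IsPGroup p ↥W → (∀ w ∈ W, w ∈ X) →
      (∀ x ∈ X, x ∈ C → (∀ w ∈ W, w * x = x * w) → x ∈ W) → PN p (C ⊓ normalizer (W : Set G))) : PN p C := by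
  have h1 : PN p (⊤ : Subgroup ↥C) := by
    refine hcl _ (hX.subgroup C) ?_
    intro W hW
    apply PN.comap C.subtype_injective
    have hWC : W.map C.subtype ≤ C := map_subtype_le W
    refine (h (W.map C.subtype) hWC (hW.pg.map _) ?_ ?_).mono ?_
    · rintro _ ⟨w, hw, rfl⟩
      exact hW.sub w hw
    · intro x hx hxC hcomm
      refine ⟨⟨x, hxC⟩, hW.cen ⟨x, hxC⟩ hx ?_, rfl⟩
      intro u hu
      exact Subtype.ext (hcomm u ⟨u, hu, rfl⟩)
    · rintro _ ⟨n, hn, rfl⟩
      refine ⟨n.2, ?_⟩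
      change (n : G) ∈ normalizer ((W.map C.subtype : Subgroup G) : Set G)
      rw [mem_normalizer_iff]
      intro y
      constructor
      · rintro ⟨w, hw, rfl⟩
        exact ⟨n * w * n⁻¹, (mem_normalizer_iff.mp hn w).mp hw, rfl⟩
      · rintro ⟨w, hw, he⟩
        have hyC : y ∈ C := by
          have : y = (n : G)⁻¹ * w * n := by
            change (w : G) = n * y * (n : G)⁻¹ at he
            rw [he]; group
          rw [this]
          exact mul_mem (mul_mem (inv_mem n.2) w.2) n.2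
        refine ⟨⟨y, hyC⟩, ?_, rfl⟩
        have h5 : n * (⟨y, hyC⟩ : ↥C) * n⁻¹ = w := Subtype.ext he.symm
        refine (mem_normalizer_iff.mp hn (⟨y, hyC⟩ : ↥C)).mpr ?_
        rw [h5]; exact hw
  have h2 := h1.map_inj C.subtype_injective
  rwa [← MonoidHom.range_eq_map, range_subtype] at h2

theorem norm_cent (E : Subgroup G) : normalizer (E : Set G) ≤ normalizer (centralizer (E : Set G) : Set G) := by
  rw [le_normalizer_iff_conj]
  intro g hg k hk e he
  have h1 : g⁻¹ * e * g ∈ E := by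
    have := (mem_normalizer_iff.mp (inv_mem hg) e).mp he
    simpa using this
  have h2 : (g⁻¹ * e * g) * k = k * (g⁻¹ * e * g) := hk _ h1
  calc e * (g * k * g⁻¹) = g * ((g⁻¹ * e * g) * k) * g⁻¹ := by group
    _ = g * (k * (g⁻¹ * e * g)) * g⁻¹ := by rw [h2]
    _ = g * k * g⁻¹ * e := by group

/-- normalizers of noncentral `p`-subgroups contained in `X` -/
theorem noncentral {p : ℕ} [hp : Fact p.Prime] [Finite G]
    (ih : ∀ C : Subgroup G, C ≠ ⊤ → Claim p ↥C) {X : Set G} (hX : FX p X)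
    (hc : ∀ U : Subgroup G, Cen p X U → PN p (normalizer (U : Set G))) :
    ∀ k : ℕ, ∀ U : Subgroup G, Nat.card G - Nat.card U = k → IsPGroup p ↥U → (∀ u ∈ U, u ∈ X) → ¬ U ≤ center G →
      PN p (normalizer (U : Set G)) := by
  intro k
  induction k using Nat.strong_induction_on with
  | _ k IH =>
  intro U hk hU hUX hUz
  set C := centralizer (U : Set G) with hC
  have hCne : C ≠ ⊤ := by
    intro h
    apply hUz
    intro u hu
    rw [mem_center_iff]
    intro g
    have : g ∈ C := by rw [h]; trivial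
    exact (this u hu).symm
  have hCN : C ≤ normalizer (U : Set G) := centralizer_le_normalizer _
  have hCp : PN p C := by
    refine sub_case hX (ih C hCne) ?_
    intro W hWC hW hWX hWc
    have hpg : IsPGroup p ↥(U ⊔ W : Subgroup G) := by
      rw [sup_comm]; exact hW.to_sup_of_normal_right' hU (hWC.trans hCN)
    have hcen : Cen p X (U ⊔ W) := by
      refine ⟨hpg, hX.sup hUX hWX hpg, ?_⟩
      intro x hx hcomm
      refine (le_sup_right : W ≤ U ⊔ W) (hWc x hx ?_ ?_)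
      · intro u hu
        exact hcomm u ((le_sup_left : U ≤ _) hu)
      · intro w hw
        exact hcomm w ((le_sup_right : W ≤ _) hw)
    refine (hc _ hcen).mono ?_
    rintro n ⟨hnC, hnW⟩
    rw [mem_normalizer_iff_cj, cj_sup, cj_eq_of_mem_normalizer (hCN hnC), cj_eq_of_mem_normalizer hnW]
  by_cases hcen : Cen p X U
  · exact hc U hcen
  obtain ⟨x, hxX, hxc, hxU⟩ : ∃ x ∈ X, (∀ u ∈ U, u * x = x * u) ∧ x ∉ U := by
    by_contra hcon
    push_neg at hcon
    exact hcen ⟨hU, hUX, hcon⟩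
  obtain ⟨T, hT⟩ := exists_isSylIn (p := p) C
  obtain ⟨D, hD⟩ := hX.sub T hT.isPGroup
  have hxC : x ∈ C := fun u hu => hxc u hu
  obtain ⟨y, hy, hyT⟩ := hT.exists_conj_le (hX.pel x hxX) (by rwa [zpowers_le])
  have hyD : y * x * y⁻¹ ∈ D := (mem_of_eq hD).mpr ⟨hyT (conj_mem_cj (mem_zpowers x)), hX.conj x hxX y⟩
  have hyU : y * x * y⁻¹ ∉ U := by
    intro h
    apply hxU
    have h1 := hy _ h
    have h2 : y * x * y⁻¹ = x := by
      have h3 : y * x * y⁻¹ * y = y * x := by group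
      rw [h3] at h1
      exact (mul_left_cancel h1).symm
    rwa [h2] at h
  have hDC : D ≤ C := fun z hz => hT.1 ((mem_of_eq hD).mp hz).1
  have hDp : IsPGroup p ↥D := hT.isPGroup.to_le (fun z hz => ((mem_of_eq hD).mp hz).1)
  have hpg : IsPGroup p ↥(U ⊔ D : Subgroup G) := by
    rw [sup_comm]; exact hDp.to_sup_of_normal_right' hU (hDC.trans hCN)
  have hlt : Nat.card U < Nat.card ↥(U ⊔ D : Subgroup G) := by
    apply H2.Card.card_lt_of_lt
    refine lt_of_le_of_ne le_sup_left ?_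
    intro h
    apply hyU
    rw [h]
    exact (le_sup_right : D ≤ U ⊔ D) hyD
  have hle : Nat.card ↥(U ⊔ D : Subgroup G) ≤ Nat.card G := Subgroup.card_le_card_group _
  have h1 : PN p (normalizer ((U ⊔ D : Subgroup G) : Set G)) := by
    refine IH (Nat.card G - Nat.card ↥(U ⊔ D : Subgroup G)) (by omega) (U ⊔ D) rfl hpg ?_ ?_
    · exact hX.sup hUX (fun z hz => ((mem_of_eq hD).mp hz).2) hpg
    · intro h
      exact hUz (le_sup_left.trans h)
  refine PN.frattini hCN (norm_cent U) hCp hT (h1.mono ?_)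
  rintro n ⟨hn1, hn2⟩
  rw [mem_normalizer_iff_cj, cj_sup, cj_eq_of_mem_normalizer hn1, cj_eq_of_mem_normalizer (hX.norm hD hn2)]

theorem card_lt_of_ne_top [Finite G] {C : Subgroup G} (h : C ≠ ⊤) : Nat.card C < Nat.card G := by
  have h1 : Nat.card C < Nat.card (⊤ : Subgroup G) := H2.Card.card_lt_of_lt (lt_top_iff_ne_top.mpr h)
  rwa [Subgroup.card_top] at h1

/-- central `p`-subgroup: pass to the quotient -/
theorem central_case {p : ℕ} [hp : Fact p.Prime] [Finite G] {X : Set G} (hX : FX p X)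
    (hnc : ∀ U : Subgroup G, IsPGroup p ↥U → (∀ u ∈ U, u ∈ X) → ¬ U ≤ center G → PN p (normalizer (U : Set G)))
    {x₀ : G} (hx₀ : x₀ ∈ X) (hx₀c : x₀ ∉ center G) {Z : Subgroup G} [hZn : Z.Normal] (hZp : IsPGroup p ↥Z)
    (hZc : Z ≤ center G) (hcl : Claim p (G ⧸ Z)) : PN p (⊤ : Subgroup G) := by
  set π := QuotientGroup.mk' Z with hπ
  have hsurj : Function.Surjective π := QuotientGroup.mk'_surjective Z
  have hker : π.ker = Z := QuotientGroup.ker_mk' Z
  have hcomap : ∀ T : Subgroup (G ⧸ Z), IsPGroup p ↥T → IsPGroup p ↥(T.comap π) := by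
    intro T hT
    exact hT.comap_of_ker_isPGroup π (by rw [hker]; exact hZp)
  have hsub : ∀ T : Subgroup (G ⧸ Z), IsPGroup p ↥T → ∃ D : Subgroup G, (D : Set G) = (T.comap π : Set G) ∩ X ∧
      ((D.map π : Subgroup (G ⧸ Z)) : Set (G ⧸ Z)) = (T : Set (G ⧸ Z)) ∩ (π '' X) := by
    intro T hT
    obtain ⟨D, hD⟩ := hX.sub _ (hcomap T hT)
    refine ⟨D, hD, ?_⟩
    ext y
    constructor
    · rintro ⟨d, hd, rfl⟩
      have h1 := (mem_of_eq hD).mp hd
      exact ⟨h1.1, d, h1.2, rfl⟩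
    · rintro ⟨hy, x, hx, rfl⟩
      exact ⟨x, (mem_of_eq hD).mpr ⟨hy, hx⟩, rfl⟩
  have hXq : FX p (π '' X) := by
    refine ⟨?_, ?_, ?_⟩
    · rintro _ ⟨x, hx, rfl⟩ g
      obtain ⟨g, rfl⟩ := hsurj g
      exact ⟨g * x * g⁻¹, hX.conj x hx g, by simp⟩
    · intro T hT
      obtain ⟨D, -, hD⟩ := hsub T hT
      exact ⟨_, hD⟩
    · rintro _ ⟨x, hx, rfl⟩
      have h1 := (hX.pel x hx).map π
      rwa [MonoidHom.map_zpowers] at h1
  have h1 : PN p (⊤ : Subgroup (G ⧸ Z)) := by
    refine hcl _ hXq ?_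
    intro U hU
    obtain ⟨D, hD, hDU⟩ := hsub U hU.pg
    have hDUeq : D.map π = U := by
      apply SetLike.coe_injective
      rw [hDU]
      exact Set.inter_eq_left.mpr (fun u hu => hU.sub u hu)
    have hDp : IsPGroup p ↥D := (hcomap U hU.pg).to_le (fun z hz => ((mem_of_eq hD).mp hz).1)
    have hDX : ∀ u ∈ D, u ∈ X := fun z hz => ((mem_of_eq hD).mp hz).2
    have hDnc : ¬ D ≤ center G := by
      intro hDc
      apply hx₀c
      have h2 : π x₀ ∈ U := by
        refine hU.cen _ ⟨x₀, hx₀, rfl⟩ ?_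
        intro u hu
        rw [← hDUeq] at hu
        obtain ⟨d, hd, rfl⟩ := hu
        rw [← map_mul, ← map_mul, (mem_center_iff.mp (hDc hd) x₀)]
      exact hDc ((mem_of_eq hD).mpr ⟨h2, hx₀⟩)
    have h3 := (hnc D hDp hDX hDnc).map π
    refine h3.mono ?_
    intro n hn
    obtain ⟨g, rfl⟩ := hsurj n
    refine ⟨g, ?_, rfl⟩
    apply hX.norm hD
    have h4 : zpowers g ≤ normalizer ((U.comap π : Subgroup G) : Set G) := by
      rw [le_normalizer_iff_conj]
      intro y hy u hu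
      change π (y * u * y⁻¹) ∈ U
      have h5 : π y ∈ normalizer (U : Set (G ⧸ Z)) := by
        have : zpowers (π g) ≤ normalizer (U : Set (G ⧸ Z)) := zpowers_le.mpr hn
        apply this
        rw [← MonoidHom.map_zpowers]
        exact ⟨y, hy, rfl⟩
      rw [map_mul, map_mul, map_inv]
      exact (mem_normalizer_iff.mp h5 _).mp hu
    exact h4 (mem_zpowers g)
  rw [PN_top_iff] at h1 ⊢
  exact H13.NPC.npc_of_central_ext hZc hZp h1

theorem claim (p : ℕ) [hp : Fact p.Prime] : ∀ n : ℕ, ∀ (G : Type u) [Group G] [Finite G], Nat.card G = n → Claim p G := by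
  intro n
  induction n using Nat.strong_induction_on with
  | _ n ih =>
  intro G _ _ hn X hX hc
  have ihC : ∀ C : Subgroup G, C ≠ ⊤ → Claim p ↥C := fun C hC =>
    ih (Nat.card C) (by rw [← hn]; exact card_lt_of_ne_top hC) ↥C rfl
  have hnc : ∀ U : Subgroup G, IsPGroup p ↥U → (∀ u ∈ U, u ∈ X) → ¬ U ≤ center G → PN p (normalizer (U : Set G)) :=
    fun U => noncentral ihC hX hc _ U rfl
  by_cases hXc : ∀ x ∈ X, x ∈ center G
  · obtain ⟨T⟩ : Nonempty (Sylow p G) := inferInstance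
    obtain ⟨D, hD⟩ := hX.sub (T : Subgroup G) T.isPGroup'
    have hDc : D ≤ center G := fun z hz => hXc z ((mem_of_eq hD).mp hz).2
    have hcen : Cen p X D := by
      refine ⟨T.isPGroup'.to_le (fun z hz => ((mem_of_eq hD).mp hz).1), fun z hz => ((mem_of_eq hD).mp hz).2, ?_⟩
      intro x hx _
      refine (mem_of_eq hD).mpr ⟨?_, hx⟩
      have h1 : (zpowers x).Normal := by
        refine ⟨fun y hy g => ?_⟩
        have h2 : y ∈ center G := (zpowers_le.mpr (hXc x hx)) hy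
        rw [mem_center_iff.mp h2 g, mul_inv_cancel_right]; exact hy
      have h2 : zpowers x ≤ Cfsg.pCore p G := H11.Cores.le_pCore p (hX.pel x hx)
      exact (h2.trans (H13.Bad.pCore_le_sylow T)) (mem_zpowers x)
    have h1 := hc D hcen
    have hDn : D.Normal := by
      refine ⟨fun y hy g => ?_⟩
      rw [mem_center_iff.mp (hDc hy) g, mul_inv_cancel_right]; exact hy
    rwa [normalizer_eq_top] at h1
  push_neg at hXc
  obtain ⟨x₀, hx₀, hx₀c⟩ := hXc
  by_cases hZ : ∃ Z : Subgroup G, Z ≠ ⊥ ∧ IsPGroup p ↥Z ∧ Z ≤ center G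
  · obtain ⟨Z, hZb, hZp, hZc⟩ := hZ
    have hZn : Z.Normal := by
      refine ⟨fun y hy g => ?_⟩
      rw [mem_center_iff.mp (hZc hy) g, mul_inv_cancel_right]; exact hy
    refine central_case hX hnc hx₀ hx₀c hZp hZc (ih (Nat.card (G ⧸ Z)) ?_ (G ⧸ Z) rfl)
    rw [← hn, ← index_eq_card]
    have h1 := Z.card_mul_index
    have h2 : 1 < Nat.card Z := (Subgroup.one_lt_card_iff_ne_bot Z).mpr hZb
    have h3 : 0 < Z.index := Nat.pos_of_ne_zero index_ne_zero_of_finite
    nlinarith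
  -- no central `p`-subgroup
  have hncp : ∀ U : Subgroup G, IsPGroup p ↥U → U ≠ ⊥ → ¬ U ≤ center G := fun U h1 h2 h3 => hZ ⟨U, h2, h1, h3⟩
  by_contra hnot
  rw [PN_top_iff] at hnot
  obtain ⟨T, hT, hTb, hTn⟩ : ∃ T : Subgroup G, IsPGroup p ↥T ∧ T ≠ ⊥ ∧ ¬ PN p (normalizer (T : Set G)) := by
    by_contra hcon
    push_neg at hcon
    apply hnot
    apply Cfsg.Agent.H2.Fusion3.npc_of_frobenius
    intro Q hQ g hg ho
    by_cases hQb : Q = ⊥
    · rw [hQb]
      intro y hy
      rw [Set.mem_singleton_iff.mp hy, one_mul, mul_one]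
    · have h1 := PN_iff.mp (hcon Q hQ hQb)
      have hQN : Q ≤ normalizer (Q : Set G) := le_normalizer
      have h2 := H18.NPC.npc_centralizes h1 (K := Q.subgroupOf (normalizer (Q : Set G)))
        (hQ.comap_of_injective _ (subtype_injective _)) (g := ⟨g, hg⟩) (by
          have h3 : (Q.subgroupOf (normalizer (Q : Set G))).Normal := inferInstance
          have h4 : normalizer ((Q.subgroupOf (normalizer (Q : Set G)) : Subgroup ↥(normalizer (Q : Set G))) : Set ↥(normalizer (Q : Set G))) = ⊤ :=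
            normalizer_eq_top_iff.mpr h3
          have h5 : (⟨g, hg⟩ : ↥(normalizer (Q : Set G))) ∈ (⊤ : Subgroup ↥(normalizer (Q : Set G))) := mem_top _
          exact h4.symm ▸ h5) (by rwa [Subgroup.orderOf_mk])
      intro y hy
      exact congrArg Subtype.val (h2 ⟨y, hQN hy⟩ hy)
  apply hTn
  set C := centralizer (T : Set G) with hC
  have hCne : C ≠ ⊤ := by
    intro h
    apply hncp T hT hTb
    intro u hu
    rw [mem_center_iff]
    intro g
    have : g ∈ C := by rw [h]; trivial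
    exact (this u hu).symm
  -- a nontrivial element of `X` centralizing `T`
  obtain ⟨x, hxX, hxC, hx1⟩ : ∃ x ∈ X, x ∈ C ∧ x ≠ 1 := by
    obtain ⟨S, hTS⟩ := hT.exists_le_sylow
    obtain ⟨D, hD⟩ := hX.sub (S : Subgroup G) S.isPGroup'
    have hDS : D ≤ S := fun z hz => ((mem_of_eq hD).mp hz).1
    have hx01 : x₀ ≠ 1 := by
      rintro rfl
      exact hx₀c (one_mem _)
    have hDb : D ≠ ⊥ := by
      obtain ⟨y, -, hy⟩ := (isSylIn_sylow_top S).exists_conj_le (hX.pel x₀ hx₀) le_top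
      intro h
      have h1 : y * x₀ * y⁻¹ ∈ D := (mem_of_eq hD).mpr ⟨hy (conj_mem_cj (mem_zpowers x₀)), hX.conj x₀ hx₀ y⟩
      rw [h, mem_bot] at h1
      apply hx01
      have : x₀ = y⁻¹ * (y * x₀ * y⁻¹) * y := by group
      rw [this, h1]; group
    have h1 : D ⊓ centralizer ((S : Subgroup G) : Set G) ≠ ⊥ :=
      H2.Good.inf_centralizer_ne_bot S.isPGroup' hDS (le_normalizer.trans (hX.norm hD)) hDb
    obtain ⟨⟨x, hx⟩, hx1'⟩ := Subgroup.ne_bot_iff_exists_ne_one.mp h1
    have hx1 : x ≠ 1 := fun h => hx1' (Subtype.ext h)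
    exact ⟨x, ((mem_of_eq hD).mp hx.1).2, centralizer_le hTS hx.2, hx1⟩
  have hCp : PN p C := by
    refine sub_case hX (ihC C hCne) ?_
    intro W hWC hW hWX hWc
    have hWb : W ≠ ⊥ := by
      rintro rfl
      apply hx1
      rw [← mem_bot]
      refine hWc x hxX hxC ?_
      intro w hw
      rw [mem_bot.mp hw, one_mul, mul_one]
    exact (hnc W hW hWX (hncp W hW hWb)).mono inf_le_right
  obtain ⟨T', hT'⟩ := exists_isSylIn (p := p) C
  obtain ⟨D, hD⟩ := hX.sub T' hT'.isPGroup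
  have hDb : D ≠ ⊥ := by
    obtain ⟨y, hy, hyT⟩ := hT'.exists_conj_le (hX.pel x hxX) (by rwa [zpowers_le])
    intro h
    have h1 : y * x * y⁻¹ ∈ D := (mem_of_eq hD).mpr ⟨hyT (conj_mem_cj (mem_zpowers x)), hX.conj x hxX y⟩
    rw [h, mem_bot] at h1
    apply hx1
    have : x = y⁻¹ * (y * x * y⁻¹) * y := by group
    rw [this, h1]; group
  have hDp : IsPGroup p ↥D := hT'.isPGroup.to_le (fun z hz => ((mem_of_eq hD).mp hz).1)
  have h1 := hnc D hDp (fun z hz => ((mem_of_eq hD).mp hz).2) (hncp D hDp hDb)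
  exact PN.frattini (centralizer_le_normalizer _) (norm_cent T) hCp hT' (h1.mono (inf_le_right.trans (hX.norm hD)))

end fx

/-- the criterion in terms of strongly closed subgroups -/
theorem strongly_closed {G : Type u} [Group G] [Finite G] {p : ℕ} [hp : Fact p.Prime] (S : Sylow p G) (D : Subgroup G)
    (hD : Cfsg.IsStronglyClosed D (S : Subgroup G))
    (h : ∀ U : Subgroup G, U ≤ D → D ⊓ centralizer (U : Set G) ≤ U → Cfsg.HasNormalPComplement p ↥(normalizer (U : Set G))) :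
    Cfsg.HasNormalPComplement p G := by
  obtain ⟨hDS, hsc⟩ := hD
  set X : Set G := {x | ∃ g : G, g * x * g⁻¹ ∈ D} with hXdef
  have hXS : ∀ x ∈ X, ∀ g : G, g * x * g⁻¹ ∈ (S : Subgroup G) → g * x * g⁻¹ ∈ D := by
    rintro x ⟨y, hy⟩ g hg
    have h1 := hsc _ hy (g * y⁻¹)
    have e1 : g * y⁻¹ * (y * x * y⁻¹) * (g * y⁻¹)⁻¹ = g * x * g⁻¹ := by group
    rw [e1] at h1
    exact h1 hg
  have hX : FX p X := by
    refine ⟨?_, ?_, ?_⟩
    · rintro x ⟨y, hy⟩ g
      refine ⟨y * g⁻¹, ?_⟩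
      have e1 : y * g⁻¹ * (g * x * g⁻¹) * (y * g⁻¹)⁻¹ = y * x * y⁻¹ := by group
      rw [e1]; exact hy
    · intro T hT
      obtain ⟨g, -, hg⟩ := (isSylIn_sylow_top S).exists_conj_le hT le_top
      refine ⟨T ⊓ cj g⁻¹ D, ?_⟩
      ext x
      constructor
      · rintro ⟨h1, h2⟩
        refine ⟨h1, g, ?_⟩
        have := mem_cj.mp h2
        simpa using this
      · rintro ⟨h1, h2⟩
        refine ⟨h1, ?_⟩
        change x ∈ cj g⁻¹ D
        rw [mem_cj, inv_inv]
        exact hXS x h2 g (hg (conj_mem_cj h1))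
    · rintro x ⟨y, hy⟩
      have h1 : IsPGroup p ↥(zpowers (y * x * y⁻¹)) := S.isPGroup'.to_le (by rw [zpowers_le]; exact hDS hy)
      have h2 : zpowers x = cj y⁻¹ (zpowers (y * x * y⁻¹)) := by
        apply le_antisymm
        · rw [zpowers_le, mem_cj, inv_inv]; exact mem_zpowers _
        · rw [cj_le_iff, inv_inv, zpowers_le]
          exact conj_mem_cj (mem_zpowers x)
      rw [h2]; exact isPGroup_cj h1
  rw [← PN_top_iff]
  refine claim p _ G rfl X hX ?_
  intro U hU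
  obtain ⟨g, -, hg⟩ := (isSylIn_sylow_top S).exists_conj_le hU.pg le_top
  have hUD : cj g U ≤ D := by
    rw [cj_le_iff_forall]
    intro u hu
    exact hXS u (hU.sub u hu) g (hg (conj_mem_cj hu))
  have h1 := h (cj g U) hUD (by
    rintro x ⟨hx, hxc⟩
    rw [mem_cj]
    refine hU.cen _ ⟨g, ?_⟩ ?_
    · have : g * (g⁻¹ * x * g) * g⁻¹ = x := by group
      rw [this]; exact hx
    · intro u hu
      have h2 : (g * u * g⁻¹) * x = x * (g * u * g⁻¹) := hxc _ (conj_mem_cj hu)
      calc u * (g⁻¹ * x * g) = g⁻¹ * ((g * u * g⁻¹) * x) * g := by group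
        _ = g⁻¹ * (x * (g * u * g⁻¹)) * g := by rw [h2]
        _ = g⁻¹ * x * g * u := by group)
  rw [← PN_iff, ← cj_normalizer] at h1
  have h2 : PN p (cj g⁻¹ (cj g (normalizer (U : Set G)))) := h1.map_inj (MulAut.conj g⁻¹).injective
  rwa [cj_inv_cj] at h2

end Cfsg.Agent.H18.PN
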