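import Mathlib

/-!
# Fixed points of elements of order `p` normalizing `p'`-groups: the norm argument
-/

set_option autoImplicit false
set_option linter.unusedSectionVars false
set_option linter.unusedSimpArgs false
set_option linter.style.haveILetI false

namespace Cfsg.Agent.H18.PS

open Subgroup Pointwise
open scoped commutatorElement

/-- the norm of `b` is not trivial -/
theorem norm_ne {V L : Type*} [CommGroup V] [Group L] (ρ : L →* MulAut V) (X : Subgroup L) [Finite X] (b : L) (p : ℕ)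
    (hp : p ≠ 0) (hcop : ∀ v : V, v ^ Nat.card X = 1 → v = 1) (hbX : ∀ i : ℕ, ∀ x ∈ X, b ^ i * x * (b ^ i)⁻¹ ∈ X)
    (hfix : ∀ x ∈ X, ∀ i : ℕ, 0 < i → i < p → b ^ i * x = x * b ^ i → x = 1)
    (hC : ∀ v : V, (∀ x ∈ X, ρ x v = v) → v = 1)
    (hN : ∀ v : V, ∏ i ∈ Finset.range p, ρ (b ^ i) v = 1) (v : V) : v = 1 := by
  classical
  haveI : Fintype X := Fintype.ofFinite X
  obtain ⟨m, rfl⟩ := Nat.exists_eq_succ_of_ne_zero hp
  have key : ∏ x : X, ∏ i ∈ Finset.range (m + 1), ρ ((x : L) * b ^ i * (x : L)⁻¹) v = 1 := by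
    apply Finset.prod_eq_one
    intro x _
    have h1 : ∏ i ∈ Finset.range (m + 1), ρ ((x : L) * b ^ i * (x : L)⁻¹) v =
        ρ x (∏ i ∈ Finset.range (m + 1), ρ (b ^ i) (ρ (x : L)⁻¹ v)) := by
      rw [map_prod]
      apply Finset.prod_congr rfl
      intro i _
      rw [map_mul, map_mul, MulAut.mul_apply, MulAut.mul_apply]
    rw [h1, hN, map_one]
  rw [Finset.prod_comm, Finset.prod_range_succ'] at key
  have h2 : ∀ i ∈ Finset.range m, ∏ x : X, ρ ((x : L) * b ^ (i + 1) * (x : L)⁻¹) v = 1 := by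
    intro i hi
    rw [Finset.mem_range] at hi
    set u := ρ (b ^ (i + 1)) v with hu
    let φ : X → X := fun x => ⟨(x : L) * (b ^ (i + 1) * (x : L)⁻¹ * (b ^ (i + 1))⁻¹),
      X.mul_mem x.2 (hbX _ _ (X.inv_mem x.2))⟩
    have hφ : Function.Injective φ := by
      intro x y hxy
      have h3 : (x : L) * (b ^ (i + 1) * (x : L)⁻¹ * (b ^ (i + 1))⁻¹) = y * (b ^ (i + 1) * (y : L)⁻¹ * (b ^ (i + 1))⁻¹) :=
        congrArg Subtype.val hxy
      have h4 : b ^ (i + 1) * ((y : L)⁻¹ * x) = ((y : L)⁻¹ * x) * b ^ (i + 1) := by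
        have h5 : (x : L) * b ^ (i + 1) * (x : L)⁻¹ = y * b ^ (i + 1) * (y : L)⁻¹ := by
          calc (x : L) * b ^ (i + 1) * (x : L)⁻¹ = ((x : L) * (b ^ (i + 1) * (x : L)⁻¹ * (b ^ (i + 1))⁻¹)) * b ^ (i + 1) := by group
            _ = (y * (b ^ (i + 1) * (y : L)⁻¹ * (b ^ (i + 1))⁻¹)) * b ^ (i + 1) := by rw [h3]
            _ = y * b ^ (i + 1) * (y : L)⁻¹ := by group
        calc b ^ (i + 1) * ((y : L)⁻¹ * x) = (y : L)⁻¹ * (y * b ^ (i + 1) * (y : L)⁻¹) * x := by group
          _ = (y : L)⁻¹ * (x * b ^ (i + 1) * (x : L)⁻¹) * x := by rw [h5]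
          _ = ((y : L)⁻¹ * x) * b ^ (i + 1) := by group
      have h6 := hfix ((y : L)⁻¹ * x) (X.mul_mem (X.inv_mem y.2) x.2) (i + 1) (by omega) (by omega) h4
      apply Subtype.ext
      have : (x : L) = y * ((y : L)⁻¹ * x) := by group
      rw [this, h6, mul_one]
    have hφb : Function.Bijective φ := (Finite.injective_iff_bijective).mp hφ
    have h3 : ∏ x : X, ρ ((x : L) * b ^ (i + 1) * (x : L)⁻¹) v = ∏ x : X, ρ (x : L) u := by
      rw [← hφb.prod_comp (fun x : X => ρ (x : L) u)]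
      apply Finset.prod_congr rfl
      intro x _
      rw [hu, ← MulAut.mul_apply, ← map_mul]
      congr 2
      change _ = (x : L) * (b ^ (i + 1) * (x : L)⁻¹ * (b ^ (i + 1))⁻¹) * b ^ (i + 1)
      group
    rw [h3]
    apply hC
    intro y hy
    rw [map_prod]
    have e := Equiv.prod_comp (Equiv.mulLeft (⟨y, hy⟩ : X)) (fun x : X => ρ (x : L) u)
    refine Eq.trans ?_ e
    apply Finset.prod_congr rfl
    intro x _
    rw [← MulAut.mul_apply, ← map_mul]
    rfl
  rw [Finset.prod_eq_one h2, one_mul] at key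
  apply hcop
  rw [← key]
  simp [Finset.prod_const, Nat.card_eq_fintype_card]


variable {G : Type*} [Group G]

/-- the action of the normalizer of `T` on the abelianization of `T` -/
def abAct (T : Subgroup G) : normalizer (T : Set G) →* MulAut (Abelianization T) where
  toFun l := (T.normalizerMonoidHom l).abelianizationCongr
  map_one' := by
    rw [map_one]
    exact abelianizationCongr_refl
  map_mul' a b := by
    rw [map_mul]
    exact (abelianizationCongr_trans _ _).symm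

theorem abAct_of (T : Subgroup G) (l : normalizer (T : Set G)) (t : T) :
    abAct T l (Abelianization.of t) = Abelianization.of ⟨(l : G) * t * (l : G)⁻¹, (mem_normalizer_iff.mp l.2 _).mp t.2⟩ := by
  change (T.normalizerMonoidHom l).abelianizationCongr (Abelianization.of t) = _
  rw [abelianizationCongr_of]
  rfl

theorem of_eq_one {T : Subgroup G} {t : T} : Abelianization.of t = 1 ↔ (t : G) ∈ ⁅T, T⁆ := by
  have e1 : (_root_.commutator T).map T.subtype = ⁅T, T⁆ := by
    rw [_root_.commutator_def, map_commutator, ← MonoidHom.range_eq_map, range_subtype]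
  rw [← MonoidHom.mem_ker, Abelianization.ker_of, ← e1]
  constructor
  · intro h
    exact ⟨t, h, rfl⟩
  · rintro ⟨s, hs, hst⟩
    rwa [← Subtype.ext hst]

/-- the norm of an element -/
theorem norm_eq (T : Subgroup G) (b : normalizer (T : Set G)) (t : T) (n : ℕ) :
    ∃ h : ((t : G) * b) ^ n * ((b : G) ^ n)⁻¹ ∈ T, ∏ i ∈ Finset.range n, abAct T (b ^ i) (Abelianization.of t) =
      Abelianization.of ⟨((t : G) * b) ^ n * ((b : G) ^ n)⁻¹, h⟩ := by
  induction n with
  | zero =>
    refine ⟨by simp, ?_⟩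
    rw [Finset.prod_range_zero]
    symm
    have : (⟨((t : G) * b) ^ 0 * ((b : G) ^ 0)⁻¹, by simp⟩ : T) = 1 := Subtype.ext (by simp)
    rw [this, map_one]
  | succ n ih =>
    obtain ⟨h, ih⟩ := ih
    have h2 : (b : G) ^ n * t * ((b : G) ^ n)⁻¹ ∈ T := by
      have := (mem_normalizer_iff.mp (b ^ n).2 _).mp t.2
      simpa using this
    have e1 : ((t : G) * b) ^ (n + 1) * ((b : G) ^ (n + 1))⁻¹ =
        (((t : G) * b) ^ n * ((b : G) ^ n)⁻¹) * ((b : G) ^ n * t * ((b : G) ^ n)⁻¹) := by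
      rw [pow_succ, pow_succ]; group
    have h3 : ((t : G) * b) ^ (n + 1) * ((b : G) ^ (n + 1))⁻¹ ∈ T := by rw [e1]; exact T.mul_mem h h2
    refine ⟨h3, ?_⟩
    rw [Finset.prod_range_succ, ih, abAct_of, ← map_mul]
    congr 1
    apply Subtype.ext
    change (((t : G) * b) ^ n * ((b : G) ^ n)⁻¹) * (((b ^ n : normalizer (T : Set G)) : G) * t * ((b ^ n : normalizer (T : Set G)) : G)⁻¹) =
      ((t : G) * b) ^ (n + 1) * ((b : G) ^ (n + 1))⁻¹
    rw [e1]
    simp

end Cfsg.Agent.H18.PS
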