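import Mathlib
import Cfsg.Agent.H18_PS1
import Cfsg.Agent.H18_SM1
import Cfsg.Agent.H22_ClassTwo
import Cfsg.Agent.H22_Basic

/-!
# Elements of order `p` with small centralizer in a minimal `p`-group
-/

set_option autoImplicit false
set_option linter.unusedSectionVars false
set_option linter.unusedSimpArgs false
set_option linter.style.haveILetI false

namespace Cfsg.Agent.H18.PS

open Subgroup Pointwise
open scoped commutatorElement
open Cfsg.Agent.H13.Syl
open Cfsg.Agent.H18.KS (commutator_le_left_of mem_sup_of_norm le_normalizer_iff_conj)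

theorem fixed_eq_one {V L : Type*} [CommGroup V] [Group L] (ρ : L →* MulAut V) (X : Subgroup L) [Finite X]
    (hcop : ∀ v : V, v ^ Nat.card X = 1 → v = 1)
    (hgen : ∀ v : V, v ∈ closure {w : V | ∃ u : V, ∃ x ∈ X, w = u * (ρ x u)⁻¹})
    (v : V) (hv : ∀ x ∈ X, ρ x v = v) : v = 1 := by
  classical
  haveI : Fintype X := Fintype.ofFinite X
  let M : V →* V := ∏ x : X, (ρ (x : L)).toMonoidHom
  have hM : ∀ u : V, M u = ∏ x : X, ρ (x : L) u := by
    intro u
    exact MonoidHom.finset_prod_apply _ _ _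
  have h1 : ∀ u : V, ∀ y ∈ X, M (ρ y u) = M u := by
    intro u y hy
    rw [hM, hM]
    have e := Equiv.prod_comp (Equiv.mulRight (⟨y, hy⟩ : X)) (fun x : X => ρ (x : L) u)
    refine Eq.trans ?_ e
    apply Finset.prod_congr rfl
    intro x _
    rw [← MulAut.mul_apply, ← map_mul]
    rfl
  have h2 : ∀ u : V, M u = 1 := by
    intro u
    have hle : closure {w : V | ∃ u : V, ∃ x ∈ X, w = u * (ρ x u)⁻¹} ≤ M.ker := by
      rw [closure_le]
      rintro w ⟨u, x, hx, rfl⟩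
      rw [SetLike.mem_coe, MonoidHom.mem_ker, map_mul, map_inv, h1 u x hx, mul_inv_cancel]
    exact hle (hgen u)
  apply hcop
  rw [← h2 v, hM]
  have h3 : ∀ x : X, ρ (x : L) v = v := fun x => hv x x.2
  simp only [h3]
  simp [Finset.prod_const, Nat.card_eq_fintype_card]

variable {G : Type*} [Group G]

/-- the configuration -/
structure Cfg (p : ℕ) (T X : Subgroup G) (b : G) : Prop where
  Tp : IsPGroup p T
  XT : X ≤ normalizer (T : Set G)
  bT : b ∈ normalizer (T : Set G)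
  bX : b ∈ normalizer (X : Set G)
  bp : b ^ p = 1
  b1 : b ≠ 1
  Xp : (Nat.card X).Coprime p
  fix : ∀ x ∈ X, b * x = x * b → x = 1
  TX : ⁅T, X⁆ = T
  cen : ⁅T, T⁆ ≤ centralizer (T : Set G)
  exp : ∀ t ∈ T, t ^ p = 1
  min : ∀ S < T, X ≤ normalizer (S : Set G) → b ∈ normalizer (S : Set G) → X ≤ centralizer (S : Set G)
  ne : ¬ X ≤ centralizer (T : Set G)

variable [Finite G] {p : ℕ} [hp : Fact p.Prime] {T X : Subgroup G} {b : G}

theorem Cfg.cop (h : Cfg p T X b) (v : Abelianization T) (hv : v ^ Nat.card (X.subgroupOf (normalizer (T : Set G))) = 1) :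
    v = 1 := by
  obtain ⟨t, rfl⟩ := QuotientGroup.mk_surjective v
  change Abelianization.of t ^ _ = 1 at hv
  change Abelianization.of t = 1
  have h1 : (Abelianization.of t) ^ p = 1 := by
    rw [← map_pow]
    have : t ^ p = 1 := Subtype.ext (by simpa using h.exp t t.2)
    rw [this, map_one]
  have h2 : orderOf (Abelianization.of t) ∣ p := orderOf_dvd_of_pow_eq_one h1
  have h3 : orderOf (Abelianization.of t) ∣ Nat.card X := by
    rw [← H22.Basic.card_subgroupOf_eq h.XT]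
    exact orderOf_dvd_of_pow_eq_one hv
  exact orderOf_eq_one_iff.mp (Nat.eq_one_of_dvd_coprimes h.Xp h3 h2)

theorem Cfg.fixV (h : Cfg p T X b) (v : Abelianization T)
    (hv : ∀ x ∈ X.subgroupOf (normalizer (T : Set G)), abAct T x v = v) : v = 1 := by
  apply fixed_eq_one (abAct T) (X.subgroupOf (normalizer (T : Set G))) h.cop _ v hv
  intro v
  obtain ⟨t, rfl⟩ := QuotientGroup.mk_surjective v
  change Abelianization.of t ∈ _
  set K := closure {w : Abelianization T | ∃ u, ∃ x ∈ X.subgroupOf (normalizer (T : Set G)), w = u * (abAct T x u)⁻¹} with hK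
  have hle : ⁅T, X⁆ ≤ (K.comap Abelianization.of).map T.subtype := by
    rw [commutator_le]
    intro t ht x hx
    have hmem : ⁅t, x⁆ ∈ T := by
      have := commutator_mem_commutator ht hx
      rwa [h.TX] at this
    refine ⟨⟨⁅t, x⁆, hmem⟩, ?_, rfl⟩
    change Abelianization.of (⟨⁅t, x⁆, hmem⟩ : T) ∈ K
    apply Subgroup.subset_closure
    refine ⟨Abelianization.of ⟨t, ht⟩, ⟨x, h.XT hx⟩, hx, ?_⟩
    rw [abAct_of, ← map_inv, ← map_mul]
    congr 1
    apply Subtype.ext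
    simp only [commutatorElement_def, Subgroup.coe_mul, Subgroup.coe_inv]
    group
  rw [h.TX] at hle
  obtain ⟨s, hs, hst⟩ := hle t.2
  rw [← Subtype.ext hst]
  exact hs

/-- `C_{T/D}(X) = 1` -/
theorem Cfg.fixD (h : Cfg p T X b) {t : G} (ht : t ∈ T) (hx : ∀ x ∈ X, x * t * x⁻¹ * t⁻¹ ∈ ⁅T, T⁆) : t ∈ ⁅T, T⁆ := by
  have h1 : Abelianization.of (⟨t, ht⟩ : T) = 1 := by
    apply h.fixV
    intro x hxX
    rw [abAct_of]
    have h2 := hx x hxX
    rw [← div_eq_one, ← map_div, of_eq_one]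
    simp only [div_eq_mul_inv, Subgroup.coe_mul, Subgroup.coe_inv]
    exact h2
  rw [of_eq_one] at h1
  exact h1

theorem pow_comm_of {x b : G} {i : ℕ} (hb : b ^ p = 1) (hi : 0 < i) (hip : i < p) (h : b ^ i * x = x * b ^ i) :
    b * x = x * b := by
  have hcop : Nat.Coprime p i := by
    rw [Nat.Prime.coprime_iff_not_dvd hp.out]
    intro hd
    exact absurd (Nat.le_of_dvd hi hd) (by omega)
  have h1 : IsCoprime (p : ℤ) (i : ℤ) := Nat.isCoprime_iff_coprime.mpr hcop
  obtain ⟨u, v, huv⟩ := h1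
  have h2 : b = (b ^ i) ^ v := by
    have : b ^ (u * p + v * i : ℤ) = b := by rw [huv, zpow_one]
    rw [zpow_add, mul_comm u, zpow_mul, zpow_natCast, hb, one_zpow, one_mul, mul_comm v, zpow_mul, zpow_natCast] at this
    exact this.symm
  have h3 : Commute (b ^ i) x := h
  have h4 := h3.zpow_left v
  rw [← h2] at h4
  exact h4

/-- the norm of some element of `T` is outside the derived subgroup -/
theorem Cfg.exists_norm (h : Cfg p T X b) : ∃ t ∈ T, (t * b) ^ p ∈ T ∧ (t * b) ^ p ∉ ⁅T, T⁆ := by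
  classical
  by_contra hcon
  simp only [not_exists, not_and, not_not] at hcon
  apply h.ne
  have hT : ∀ v : Abelianization T, v = 1 := by
    apply norm_ne (abAct T) (X.subgroupOf (normalizer (T : Set G))) ⟨b, h.bT⟩ p hp.out.ne_zero h.cop
    · intro i x hx
      have h1 : b ^ i ∈ normalizer (X : Set G) := pow_mem h.bX i
      exact (mem_normalizer_iff.mp h1 _).mp hx
    · intro x hx i hi hip hc
      have h1 : b ^ i * (x : G) = x * b ^ i := by
        have := congrArg Subtype.val hc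
        simpa using this
      have h2 := h.fix x hx (pow_comm_of h.bp hi hip h1)
      exact Subtype.ext h2
    · exact h.fixV
    · intro v
      obtain ⟨t, rfl⟩ := QuotientGroup.mk_surjective v
      change ∏ i ∈ Finset.range p, abAct T (⟨b, h.bT⟩ ^ i) (Abelianization.of t) = 1
      obtain ⟨h1, h2⟩ := norm_eq T ⟨b, h.bT⟩ t p
      rw [h2, of_eq_one]
      change ((t : G) * b) ^ p * (b ^ p)⁻¹ ∈ ⁅T, T⁆
      have h3 : ((t : G) * b) ^ p * (b ^ p)⁻¹ ∈ T := h1
      rw [h.bp, inv_one, mul_one] at h3 ⊢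
      exact hcon t t.2 h3
  -- so `T` is perfect
  have hTT : T ≤ ⁅T, T⁆ := by
    intro t ht
    have := hT (Abelianization.of ⟨t, ht⟩)
    rwa [of_eq_one] at this
  have hTb := H22.Coprime3.eq_bot_of_le_commutator_of_isPGroup h.Tp hTT
  rw [hTb]
  intro x _ y hy
  have : y = 1 := by simpa using hy
  rw [this]; group

/-- multiplicativity of the norm modulo `D` -/
theorem Cfg.norm_mem (h : Cfg p T X b) {t : G} (ht : t ∈ T) : (t * b) ^ p ∈ T := by
  obtain ⟨h1, -⟩ := norm_eq T ⟨b, h.bT⟩ ⟨t, ht⟩ p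
  have h3 : (t * b) ^ p * (b ^ p)⁻¹ ∈ T := h1
  rwa [h.bp, inv_one, mul_one] at h3

theorem Cfg.norm_mul (h : Cfg p T X b) {s t : G} (hs : s ∈ T) (ht : t ∈ T) :
    ∃ d ∈ ⁅T, T⁆, (s * t * b) ^ p = (s * b) ^ p * (t * b) ^ p * d := by
  obtain ⟨h1, h1'⟩ := norm_eq T ⟨b, h.bT⟩ ⟨s, hs⟩ p
  obtain ⟨h2, h2'⟩ := norm_eq T ⟨b, h.bT⟩ ⟨t, ht⟩ p
  obtain ⟨h3, h3'⟩ := norm_eq T ⟨b, h.bT⟩ ⟨s * t, T.mul_mem hs ht⟩ p
  have e : (⟨s * t, T.mul_mem hs ht⟩ : T) = ⟨s, hs⟩ * ⟨t, ht⟩ := rfl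
  have h4 : ∏ i ∈ Finset.range p, abAct T (⟨b, h.bT⟩ ^ i) (Abelianization.of ⟨s * t, T.mul_mem hs ht⟩) =
      (∏ i ∈ Finset.range p, abAct T (⟨b, h.bT⟩ ^ i) (Abelianization.of ⟨s, hs⟩)) *
      (∏ i ∈ Finset.range p, abAct T (⟨b, h.bT⟩ ^ i) (Abelianization.of ⟨t, ht⟩)) := by
    rw [← Finset.prod_mul_distrib]
    apply Finset.prod_congr rfl
    intro i _
    rw [e, map_mul, map_mul]
  rw [h1', h2', h3', ← map_mul, ← inv_mul_eq_one, ← map_inv, ← map_mul, of_eq_one] at h4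
  simp only [Subgroup.coe_mul, Subgroup.coe_inv] at h4
  rw [h.bp, inv_one, mul_one, mul_one, mul_one] at h4
  refine ⟨((s * b) ^ p * (t * b) ^ p)⁻¹ * (s * t * b) ^ p, ?_, by group⟩
  have := inv_mem h4
  rwa [mul_inv_rev, inv_inv] at this

end Cfsg.Agent.H18.PS
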