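import Mathlib
import Cfsg.Agent.H18_PS2

/-!
# Elements of order `p` with small centralizer in a minimal `p`-group, II
-/

set_option autoImplicit false
set_option linter.unusedSectionVars false
set_option linter.unusedSimpArgs false
set_option linter.style.haveILetI false

namespace Cfsg.Agent.H18.PS

open Subgroup Pointwise
open scoped commutatorElement
open Cfsg.Agent.H13.Syl
open Cfsg.Agent.H18.KS (commutator_le_left_of mem_sup_of_norm le_normalizer_iff_conj)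

variable {G : Type*} [Group G] [Finite G] {p : ℕ} [hp : Fact p.Prime] {T X : Subgroup G} {b : G}

theorem Cfg.DT (_h : Cfg p T X b) : ⁅T, T⁆ ≤ T := commutator_le_left_of le_normalizer

theorem Cfg.cc (h : Cfg p T X b) {d t : G} (hd : d ∈ ⁅T, T⁆) (ht : t ∈ T) : Commute d t := (h.cen hd t ht).symm

theorem Cfg.cm (_h : Cfg p T X b) {s t : G} (hs : s ∈ T) (ht : t ∈ T) : s * t * s⁻¹ * t⁻¹ ∈ ⁅T, T⁆ := by
  have := commutator_mem_commutator hs ht
  rwa [commutatorElement_def] at this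

theorem Cfg.bD (h : Cfg p T X b) : b ∈ normalizer ((⁅T, T⁆ : Subgroup G) : Set G) := by
  have h1 : zpowers b ≤ normalizer (T : Set G) := by rw [zpowers_le]; exact h.bT
  exact H22.Basic.le_normalizer_commutator h1 h1 (mem_zpowers b)

theorem Cfg.XD (h : Cfg p T X b) : X ≤ normalizer ((⁅T, T⁆ : Subgroup G) : Set G) :=
  H22.Basic.le_normalizer_commutator h.XT h.XT

/-- `[D, b]` -/
abbrev D1 (T : Subgroup G) (b : G) : Subgroup G := ⁅(⁅T, T⁆ : Subgroup G), zpowers b⁆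

theorem Cfg.D1_le (h : Cfg p T X b) : D1 T b ≤ ⁅T, T⁆ :=
  commutator_le_left_of (by rw [zpowers_le]; exact h.bD)

theorem mem_D1 {d : G} (hd : d ∈ ⁅T, T⁆) : b * d * b⁻¹ * d⁻¹ ∈ D1 T b := by
  have h1 : ⁅d, b⁆ ∈ D1 T b := commutator_mem_commutator hd (mem_zpowers b)
  have h2 := inv_mem h1
  rw [commutatorElement_inv, commutatorElement_def] at h2
  exact h2

/-- the `p`-th power of `s b` commutes with `s b` -/
theorem Cfg.norm_comm (h : Cfg p T X b) {s : G} (hs : s ∈ T) :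
    (s * b) ^ p * s * ((s * b) ^ p)⁻¹ * s⁻¹ = b * (s * b) ^ p * b⁻¹ * ((s * b) ^ p)⁻¹ := by
  set n := (s * b) ^ p with hn
  have hnT : n ∈ T := h.norm_mem hs
  have hc : Commute n (s * b) := Commute.pow_left (Commute.refl _) p
  set k := n * s * n⁻¹ * s⁻¹ with hk
  have hkD : k ∈ ⁅T, T⁆ := h.cm hnT hs
  have h1 : Commute k s := h.cc hkD hs
  have e1 : n * s = k * s * n := by rw [hk]; group
  have e2 : s * k * n * b = s * b * n := by
    calc s * k * n * b = k * s * n * b := by rw [h1.eq]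
      _ = n * (s * b) := by rw [← e1]; group
      _ = s * b * n := hc.eq
  have e3 : k * n * b = b * n := by
    have : s * (k * n * b) = s * (b * n) := by
      calc s * (k * n * b) = s * k * n * b := by group
        _ = s * b * n := e2
        _ = s * (b * n) := by group
    exact mul_left_cancel this
  rw [← e3]; group

theorem mem_of_sq {H : Subgroup G} (hp2 : p ≠ 2) {k : G} (hk : k ^ p = 1) (h2 : k * k ∈ H) : k ∈ H := by
  obtain ⟨m, hm⟩ := hp.out.eq_two_or_odd'.resolve_left hp2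
  have h1 : (k * k) ^ (m + 1) = k := by
    rw [← pow_two, ← pow_mul, show 2 * (m + 1) = p + 1 by omega, pow_succ, hk, one_mul]
  rw [← h1]
  exact H.pow_mem h2 _

theorem Cfg.key (h : Cfg p T X b) (hp2 : p ≠ 2) {s : G} (hs : s ∈ T) :
    (s * b) ^ p * s * ((s * b) ^ p)⁻¹ * s⁻¹ ∈ D1 T b := by
  set n := (s * b) ^ p with hn
  have hnT : n ∈ T := h.norm_mem hs
  set k := n * s * n⁻¹ * s⁻¹ with hk
  have hkD : k ∈ ⁅T, T⁆ := h.cm hnT hs
  have cks : Commute k s := h.cc hkD hs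
  have ckn : Commute k n := h.cc hkD hnT
  have e1 : n * s = k * s * n := by rw [hk]; group
  have ek : k = b * n * b⁻¹ * n⁻¹ := h.norm_comm hs
  obtain ⟨d, hd, hd2⟩ := h.norm_mul hs hs
  rw [← hn] at hd2
  have h2 := h.norm_comm (T.mul_mem hs hs)
  rw [hd2] at h2
  have cds : Commute d s := h.cc hd hs
  have cdn : Commute d n := h.cc hd hnT
  -- left hand side
  have eL : n * n * d * (s * s) * (n * n * d)⁻¹ * (s * s)⁻¹ = k * k * (k * k) := by
    have a1 : n * (s * s) = (k * k) * (s * s) * n := by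
      calc n * (s * s) = (n * s) * s := by group
        _ = (k * s * n) * s := by rw [e1]
        _ = k * s * (n * s) := by group
        _ = k * s * (k * s * n) := by rw [e1]
        _ = k * (s * k) * s * n := by group
        _ = k * (k * s) * s * n := by rw [cks.eq]
        _ = (k * k) * (s * s) * n := by group
    have a2 : n * n * (s * s) = (k * k * (k * k)) * (s * s) * (n * n) := by
      calc n * n * (s * s) = n * (n * (s * s)) := by group
        _ = n * (k * k) * ((s * s) * n) := by rw [a1]; group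
        _ = (k * k) * n * ((s * s) * n) := by rw [(ckn.mul_left ckn).eq]
        _ = (k * k) * (n * (s * s)) * n := by group
        _ = (k * k * (k * k)) * (s * s) * (n * n) := by rw [a1]; group
    have a3 : d * (s * s) = s * s * d := (cds.mul_right cds).eq
    calc n * n * d * (s * s) * (n * n * d)⁻¹ * (s * s)⁻¹ = n * n * (d * (s * s)) * (n * n * d)⁻¹ * (s * s)⁻¹ := by group
      _ = (n * n * (s * s)) * (n * n)⁻¹ * (s * s)⁻¹ := by rw [a3]; group
      _ = k * k * (k * k) := by rw [a2]; group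
  have eR : b * (n * n * d) * b⁻¹ * (n * n * d)⁻¹ = k * k * (b * d * b⁻¹ * d⁻¹) := by
    set e := b * d * b⁻¹ * d⁻¹ with he
    have heD : e ∈ ⁅T, T⁆ := h.D1_le (mem_D1 hd)
    have cen : Commute e n := h.cc heD hnT
    have b1 : b * n * b⁻¹ = k * n := by rw [ek]; group
    calc b * (n * n * d) * b⁻¹ * (n * n * d)⁻¹ = (b * n * b⁻¹) * (b * n * b⁻¹) * (b * d * b⁻¹ * d⁻¹) * (n * n)⁻¹ := by group
      _ = k * n * (k * n) * e * (n * n)⁻¹ := by rw [b1]
      _ = k * (n * k) * (n * e) * (n * n)⁻¹ := by group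
      _ = k * (k * n) * (e * n) * (n * n)⁻¹ := by rw [ckn.eq, cen.eq]
      _ = k * k * (n * e) * n * (n * n)⁻¹ := by group
      _ = k * k * (e * n) * n * (n * n)⁻¹ := by rw [cen.eq]
      _ = k * k * e := by group
  rw [eL, eR] at h2
  have h3 : k * k = b * d * b⁻¹ * d⁻¹ := mul_left_cancel h2
  apply mem_of_sq hp2 (h.exp k (h.DT hkD))
  rw [h3]
  exact mem_D1 hd

/-- elements fixed by `b` modulo `D` -/
def SS (T : Subgroup G) (b : G) (h : ∀ d ∈ ⁅T, T⁆, ∀ t ∈ T, d * t = t * d) : Subgroup G where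
  carrier := {s | s ∈ T ∧ b * s * b⁻¹ * s⁻¹ ∈ ⁅T, T⁆}
  one_mem' := ⟨T.one_mem, by simp⟩
  mul_mem' := by
    rintro s t ⟨hs1, hs2⟩ ⟨ht1, ht2⟩
    refine ⟨T.mul_mem hs1 ht1, ?_⟩
    have e1 : b * (s * t) * b⁻¹ * (s * t)⁻¹ = (b * s * b⁻¹ * s⁻¹) * (s * (b * t * b⁻¹ * t⁻¹) * s⁻¹) := by group
    have e2 : s * (b * t * b⁻¹ * t⁻¹) * s⁻¹ = b * t * b⁻¹ * t⁻¹ := by
      rw [← h _ ht2 s hs1, mul_inv_cancel_right]
    rw [e1, e2]
    exact mul_mem hs2 ht2
  inv_mem' := by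
    rintro s ⟨hs1, hs2⟩
    refine ⟨T.inv_mem hs1, ?_⟩
    have e1 : b * s⁻¹ * b⁻¹ * s⁻¹⁻¹ = s⁻¹ * (b * s * b⁻¹ * s⁻¹)⁻¹ * s := by group
    have e2 := h _ (inv_mem hs2) s hs1
    have e3 : s⁻¹ * (b * s * b⁻¹ * s⁻¹)⁻¹ * s = (b * s * b⁻¹ * s⁻¹)⁻¹ := by
      rw [mul_assoc, e2]; group
    rw [e1, e3]
    exact inv_mem hs2

theorem card_SS (h : ∀ d ∈ ⁅T, T⁆, ∀ t ∈ T, d * t = t * d) :
    Nat.card (SS T b h) ≤ Nat.card ↥(T ⊓ centralizer ({b} : Set G)) * Nat.card ↥(⁅T, T⁆ : Subgroup G) := by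
  let φ : SS T b h →* G :=
    { toFun := fun s => b * s * b⁻¹ * (s : G)⁻¹
      map_one' := by simp
      map_mul' := by
        rintro ⟨s, hs1, hs2⟩ ⟨t, ht1, ht2⟩
        change b * (s * t) * b⁻¹ * (s * t)⁻¹ = (b * s * b⁻¹ * s⁻¹) * (b * t * b⁻¹ * t⁻¹)
        have e1 : b * (s * t) * b⁻¹ * (s * t)⁻¹ = (b * s * b⁻¹ * s⁻¹) * (s * (b * t * b⁻¹ * t⁻¹) * s⁻¹) := by group
        have e2 : s * (b * t * b⁻¹ * t⁻¹) * s⁻¹ = b * t * b⁻¹ * t⁻¹ := by
          rw [← h _ ht2 s hs1, mul_inv_cancel_right]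
        rw [e1, e2] }
  have h1 : Nat.card φ.range ≤ Nat.card ↥(⁅T, T⁆ : Subgroup G) := by
    apply card_le_of_le
    rintro _ ⟨s, rfl⟩
    exact s.2.2
  have h2 : Nat.card φ.ker ≤ Nat.card ↥(T ⊓ centralizer ({b} : Set G)) := by
    have h3 : φ.ker.map (SS T b h).subtype ≤ T ⊓ centralizer ({b} : Set G) := by
      rintro _ ⟨s, hs, rfl⟩
      refine ⟨s.2.1, ?_⟩
      have hs' : b * (s : G) * b⁻¹ * (s : G)⁻¹ = 1 := hs
      change (s : G) ∈ centralizer ({b} : Set G)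
      rw [mem_centralizer_singleton_iff]
      symm
      calc b * (s : G) = (b * (s : G) * b⁻¹ * (s : G)⁻¹) * (s * b) := by group
        _ = s * b := by rw [hs', one_mul]
    have h4 := card_le_of_le h3
    rwa [Subgroup.card_map_of_injective (SS T b h).subtype_injective] at h4
  have h3 : Nat.card φ.ker * Nat.card φ.range = Nat.card (SS T b h) := by
    rw [← Subgroup.index_ker, Subgroup.card_mul_index]
  rw [← h3]
  exact Nat.mul_le_mul h2 h1

theorem Cfg.cyc (h : Cfg p T X b) (hC : Nat.card ↥(T ⊓ centralizer ({b} : Set G)) ≤ p) {c s : G} (hcT : c ∈ T)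
    (hc : b * c * b⁻¹ * c⁻¹ ∈ ⁅T, T⁆) (hcD : c ∉ ⁅T, T⁆) (hsT : s ∈ T) (hs : b * s * b⁻¹ * s⁻¹ ∈ ⁅T, T⁆) :
    ∃ k : ℤ, ∃ d ∈ ⁅T, T⁆, s = d * c ^ k := by
  have hcen : ∀ d ∈ ⁅T, T⁆, ∀ t ∈ T, d * t = t * d := fun d hd t ht => (h.cc hd ht).eq
  set S := SS T b hcen with hS
  have hDS : ⁅T, T⁆ ≤ S := fun d hd => ⟨h.DT hd, mul_mem ((mem_normalizer_iff.mp h.bD _).mp hd) (inv_mem hd)⟩
  have hcS : zpowers c ≤ S := by rw [zpowers_le]; exact ⟨hcT, hc⟩
  set E := ⁅T, T⁆ ⊔ zpowers c with hE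
  have hES : E ≤ S := sup_le hDS hcS
  have hST : S ≤ T := fun s hs => hs.1
  have hDE : ⁅T, T⁆ ≤ E := le_sup_left
  have hidx : p ≤ (⁅T, T⁆ : Subgroup G).relIndex E := by
    have hEp : IsPGroup p E := h.Tp.to_le (hES.trans hST)
    obtain ⟨m, hm⟩ := IsPGroup.iff_card.mp hEp
    have h1 : (⁅T, T⁆ : Subgroup G).relIndex E ∣ p ^ m := by rw [← hm]; exact relIndex_dvd_card _ _
    obtain ⟨j, -, hj⟩ := (Nat.dvd_prime_pow hp.out).mp h1
    rw [hj]
    have hj0 : j ≠ 0 := by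
      rintro rfl
      rw [pow_zero, relIndex_eq_one] at hj
      exact hcD (hj ((le_sup_right : zpowers c ≤ E) (mem_zpowers c)))
    exact Nat.le_self_pow hj0 p
  have h2 : Nat.card ↥(⁅T, T⁆ : Subgroup G) * (⁅T, T⁆ : Subgroup G).relIndex E = Nat.card E := H22.Basic.card_mul_relIndex hDE
  have h3 : Nat.card S ≤ Nat.card E := by
    have h4 := card_SS (b := b) hcen
    rw [← h2]
    calc Nat.card S ≤ Nat.card ↥(T ⊓ centralizer ({b} : Set G)) * Nat.card ↥(⁅T, T⁆ : Subgroup G) := h4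
      _ ≤ p * Nat.card ↥(⁅T, T⁆ : Subgroup G) := Nat.mul_le_mul_right _ hC
      _ = Nat.card ↥(⁅T, T⁆ : Subgroup G) * p := mul_comm _ _
      _ ≤ _ := Nat.mul_le_mul_left _ hidx
  have h4 : E = S := Subgroup.eq_of_le_of_card_ge hES h3
  have h5 : s ∈ E := by rw [h4]; exact ⟨hsT, hs⟩
  have hn : zpowers c ≤ normalizer ((⁅T, T⁆ : Subgroup G) : Set G) := by
    rw [le_normalizer_iff_conj]
    intro x hx d hd
    have hxT : x ∈ T := (zpowers_le.mpr hcT) hx
    rw [← hcen d hd x hxT, mul_inv_cancel_right]; exact hd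
  obtain ⟨d, hd, x, hx, rfl⟩ := mem_sup_of_norm hn h5
  obtain ⟨k, rfl⟩ := mem_zpowers_iff.mp hx
  exact ⟨k, d, hd, rfl⟩

theorem Cfg.false (h : Cfg p T X b) (hp2 : p ≠ 2) (hC : Nat.card ↥(T ⊓ centralizer ({b} : Set G)) ≤ p)
    (hCX : T ⊓ centralizer ({b} : Set G) ≤ centralizer (X : Set G)) : False := by
  classical
  obtain ⟨t, ht, hcT, hcD⟩ := h.exists_norm
  set c := (t * b) ^ p with hc
  have hkt : c * t * c⁻¹ * t⁻¹ ∈ D1 T b := h.key hp2 ht
  have hcb : b * c * b⁻¹ * c⁻¹ ∈ ⁅T, T⁆ := by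
    rw [hc, ← h.norm_comm ht]; exact h.cm hcT ht
  have hfixc : (∀ x ∈ X, x * c * x⁻¹ * c⁻¹ = 1) → False := by
    intro hx
    apply hcD
    apply h.fixD hcT
    intro x hxX
    rw [hx x hxX]; exact one_mem _
  by_cases hDb : (⁅T, T⁆ : Subgroup G) = ⊥
  · apply hfixc
    rw [hDb, mem_bot] at hcb
    have hcC : c ∈ T ⊓ centralizer ({b} : Set G) := by
      refine ⟨hcT, ?_⟩
      change c ∈ centralizer ({b} : Set G)
      rw [mem_centralizer_singleton_iff]
      symm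
      calc b * c = (b * c * b⁻¹ * c⁻¹) * (c * b) := by group
        _ = c * b := by rw [hcb, one_mul]
    intro x hx
    have h1 := hCX hcC x hx
    rw [h1]; group
  -- the general case
  have hD1 : ¬ (⁅T, T⁆ : Subgroup G) ≤ D1 T b := by
    intro hle
    have hR : IsPGroup p ↥(⁅T, T⁆ ⊔ zpowers b : Subgroup G) := by
      have h1 : IsPGroup p ↥(⁅T, T⁆ : Subgroup G) := h.Tp.to_le h.DT
      have h2 : IsPGroup p (zpowers b) := by
        apply IsPGroup.of_card (n := 1)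
        rw [Nat.card_zpowers, pow_one]
        exact orderOf_eq_prime h.bp h.b1
      exact IsPGroup.to_sup_of_normal_left' h1 h2 (by rw [zpowers_le]; exact h.bD)
    haveI := hR.isNilpotent
    apply H1.Coprime.commutator_lt_of_nilpotent (R := ⁅T, T⁆ ⊔ zpowers b) (W := ⁅T, T⁆) this le_sup_left hDb
    exact hle.trans (commutator_mono le_rfl le_sup_right)
  have hall : ∀ s ∈ T, c * s * c⁻¹ * s⁻¹ ∈ D1 T b := by
    intro s hs
    have hns := h.norm_mem hs
    by_cases hnD : (s * b) ^ p ∈ ⁅T, T⁆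
    · obtain ⟨d, hd, hd2⟩ := h.norm_mul hs ht
      have hk := h.key hp2 (T.mul_mem hs ht)
      rw [hd2, ← hc] at hk
      set n := (s * b) ^ p with hn
      have hst := T.mul_mem hs ht
      have cn : Commute n (s * t) := h.cc hnD hst
      have cd : Commute d (s * t) := h.cc hd hst
      have cdc : Commute d c := h.cc hd hcT
      have cnc : Commute n c := h.cc hnD hcT
      have e1 : n * c * d * (s * t) * (n * c * d)⁻¹ * (s * t)⁻¹ = c * (s * t) * c⁻¹ * (s * t)⁻¹ := by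
        have a1 : d * (s * t) * d⁻¹ = s * t := by rw [cd.eq, mul_inv_cancel_right]
        have a2 : c * (s * t) * c⁻¹ * (s * t)⁻¹ ∈ ⁅T, T⁆ := h.cm hcT hst
        have a3 : n * (c * (s * t) * c⁻¹) * n⁻¹ = c * (s * t) * c⁻¹ := by
          have : Commute n (c * (s * t) * c⁻¹) := (cnc.mul_right cn).mul_right cnc.inv_right
          rw [this.eq, mul_inv_cancel_right]
        calc n * c * d * (s * t) * (n * c * d)⁻¹ * (s * t)⁻¹
            = n * (c * (d * (s * t) * d⁻¹) * c⁻¹) * n⁻¹ * (s * t)⁻¹ := by group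
          _ = c * (s * t) * c⁻¹ * (s * t)⁻¹ := by rw [a1, a3]
      rw [e1] at hk
      have hctD := h.D1_le hkt
      have e2 : c * (s * t) * c⁻¹ * (s * t)⁻¹ = (c * s * c⁻¹ * s⁻¹) * (c * t * c⁻¹ * t⁻¹) := by
        have a4 : s * (c * t * c⁻¹ * t⁻¹) * s⁻¹ = c * t * c⁻¹ * t⁻¹ := by
          rw [← (h.cc hctD hs).eq, mul_inv_cancel_right]
        calc c * (s * t) * c⁻¹ * (s * t)⁻¹ = (c * s * c⁻¹ * s⁻¹) * (s * (c * t * c⁻¹ * t⁻¹) * s⁻¹) := by group
          _ = _ := by rw [a4]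
      rw [e2] at hk
      exact (mul_mem_cancel_right hkt).mp hk
    · have hnb : b * (s * b) ^ p * b⁻¹ * ((s * b) ^ p)⁻¹ ∈ ⁅T, T⁆ := by
        rw [← h.norm_comm hs]; exact h.cm hns hs
      obtain ⟨k, d, hd, hnk⟩ := h.cyc hC hcT hcb hcD hns hnb
      have hk := h.key hp2 hs
      rw [hnk] at hk
      have hckT : c ^ k ∈ T := T.zpow_mem hcT k
      set u := c * s * c⁻¹ * s⁻¹ with hu
      have huD : u ∈ ⁅T, T⁆ := h.cm hcT hs
      have e1 : d * c ^ k * s * (d * c ^ k)⁻¹ * s⁻¹ = u ^ k := by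
        have a1 : c * s * c⁻¹ = u * s := by rw [hu]; group
        have a2 : s * c * s⁻¹ = u⁻¹ * c := by
          have : c * s = u * s * c := by rw [hu]; group
          calc s * c * s⁻¹ = u⁻¹ * (u * s * c) * s⁻¹ := by group
            _ = u⁻¹ * (c * s) * s⁻¹ := by rw [this]
            _ = u⁻¹ * c := by group
        have a3 : s * c ^ k * s⁻¹ = (u ^ k)⁻¹ * c ^ k := by
          rw [← conj_zpow, a2, ((h.cc huD hcT).inv_left).mul_zpow, inv_zpow]
        have cuc : Commute (u ^ k) (c ^ k) := (h.cc huD hcT).zpow_zpow k k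
        have a4 : c ^ k * s * (c ^ k)⁻¹ * s⁻¹ = u ^ k := by
          calc c ^ k * s * (c ^ k)⁻¹ * s⁻¹ = c ^ k * (s * c ^ k * s⁻¹)⁻¹ := by group
            _ = c ^ k * ((u ^ k)⁻¹ * c ^ k)⁻¹ := by rw [a3]
            _ = u ^ k := by group
        have a5 : d * (c ^ k * s * (c ^ k)⁻¹) * d⁻¹ = c ^ k * s * (c ^ k)⁻¹ := by
          have : Commute d (c ^ k * s * (c ^ k)⁻¹) :=
            ((h.cc hd hckT).mul_right (h.cc hd hs)).mul_right (h.cc hd hckT).inv_right
          rw [this.eq, mul_inv_cancel_right]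
        calc d * c ^ k * s * (d * c ^ k)⁻¹ * s⁻¹ = d * (c ^ k * s * (c ^ k)⁻¹) * d⁻¹ * s⁻¹ := by group
          _ = u ^ k := by rw [a5, a4]
      rw [e1] at hk
      have hpk : ¬ (p : ℤ) ∣ k := by
        rintro ⟨j, rfl⟩
        apply hnD
        rw [hnk, zpow_mul, zpow_natCast, h.exp c hcT, one_zpow, mul_one]
        exact hd
      have hcop : IsCoprime (p : ℤ) k := by
        rw [Int.isCoprime_iff_gcd_eq_one, Int.gcd_eq_natAbs, Int.natAbs_natCast]
        exact (Nat.Prime.coprime_iff_not_dvd hp.out).mpr (fun hd => hpk (Int.natCast_dvd.mpr hd))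
      obtain ⟨x, y, hxy⟩ := hcop
      have hup : u ^ p = 1 := h.exp u (h.DT huD)
      have : u = (u ^ k) ^ y := by
        have e3 : u ^ (x * p + y * k : ℤ) = u := by rw [hxy, zpow_one]
        rw [zpow_add, mul_comm x, zpow_mul, zpow_natCast, hup, one_zpow, one_mul, mul_comm y, zpow_mul] at e3
        exact e3.symm
      rw [this]
      exact zpow_mem hk y
  -- the second centre
  have hcen1 : ∀ d ∈ D1 T b, ∀ s ∈ T, Commute d s := fun d hd s hs => h.cc (h.D1_le hd) hs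
  let Z₂ : Subgroup G :=
    { carrier := {z | z ∈ T ∧ ∀ s ∈ T, z * s * z⁻¹ * s⁻¹ ∈ D1 T b}
      one_mem' := ⟨T.one_mem, fun s _ => by simp⟩
      mul_mem' := by
        rintro y z ⟨hy1, hy2⟩ ⟨hz1, hz2⟩
        refine ⟨T.mul_mem hy1 hz1, fun s hs => ?_⟩
        have e1 : y * z * s * (y * z)⁻¹ * s⁻¹ = (y * (z * s * z⁻¹ * s⁻¹) * y⁻¹) * (y * s * y⁻¹ * s⁻¹) := by group
        have e2 : y * (z * s * z⁻¹ * s⁻¹) * y⁻¹ = z * s * z⁻¹ * s⁻¹ := by
          rw [← (hcen1 _ (hz2 s hs) y hy1).eq, mul_inv_cancel_right]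
        rw [e1, e2]
        exact mul_mem (hz2 s hs) (hy2 s hs)
      inv_mem' := by
        rintro z ⟨hz1, hz2⟩
        refine ⟨T.inv_mem hz1, fun s hs => ?_⟩
        have e1 : z⁻¹ * s * z⁻¹⁻¹ * s⁻¹ = z⁻¹ * (z * s * z⁻¹ * s⁻¹)⁻¹ * z := by group
        have e2 : z⁻¹ * (z * s * z⁻¹ * s⁻¹)⁻¹ * z = (z * s * z⁻¹ * s⁻¹)⁻¹ := by
          rw [mul_assoc, (hcen1 _ (inv_mem (hz2 s hs)) z hz1).eq]; group
        rw [e1, e2]
        exact inv_mem (hz2 s hs) }
  have hZT : Z₂ ≤ T := fun z hz => hz.1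
  have hZne : Z₂ ≠ T := by
    intro he
    apply hD1
    rw [commutator_le]
    intro y hy s hs
    rw [commutatorElement_def]
    rw [← he] at hy
    exact hy.2 s hs
  have hnorm : ∀ g : G, g ∈ normalizer (T : Set G) → g ∈ normalizer (D1 T b : Set G) → g ∈ normalizer (Z₂ : Set G) := by
    intro g hg1 hg2
    apply mem_normalizer_fintype
    rintro z ⟨hz1, hz2⟩
    refine ⟨(mem_normalizer_iff.mp hg1 _).mp hz1, fun s hs => ?_⟩
    have h1 : g⁻¹ * s * g ∈ T := by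
      have := (mem_normalizer_iff.mp (inv_mem hg1) s).mp hs
      simpa using this
    have h2 := (mem_normalizer_iff.mp hg2 _).mp (hz2 _ h1)
    have e1 : g * (z * (g⁻¹ * s * g) * z⁻¹ * (g⁻¹ * s * g)⁻¹) * g⁻¹ = g * z * g⁻¹ * s * (g * z * g⁻¹)⁻¹ * s⁻¹ := by group
    rw [e1] at h2
    exact h2
  have hbD1 : b ∈ normalizer (D1 T b : Set G) := H22.Basic.right_le_normalizer_commutator _ _ (mem_zpowers b)
  have hDlt : (⁅T, T⁆ : Subgroup G) < T := by
    refine lt_of_le_of_ne h.DT ?_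
    intro he
    exact hcD (by rw [he]; exact hcT)
  have hXD : X ≤ centralizer ((⁅T, T⁆ : Subgroup G) : Set G) := h.min _ hDlt h.XD h.bD
  have hXD1 : X ≤ normalizer (D1 T b : Set G) := by
    rw [le_normalizer_iff_conj]
    intro x hx d hd
    rw [← hXD hx d (h.D1_le hd), mul_inv_cancel_right]; exact hd
  have hXZ := h.min Z₂ (lt_of_le_of_ne hZT hZne) (fun x hx => hnorm x (h.XT hx) (hXD1 hx)) (hnorm b h.bT hbD1)
  apply hfixc
  intro x hx
  have h1 := hXZ hx c ⟨hcT, hall⟩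
  rw [← h1]; group

end Cfsg.Agent.H18.PS
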