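import Mathlib
import Cfsg.Agent.H18_PS3
import Cfsg.Agent.H22_Coprime3
import Cfsg.Agent.H22_PSolv
import Cfsg.Agent.H11_Cores

/-!
# `p'`-subgroups normalized by a small elementary abelian subgroup of a `p`-soluble group
-/

set_option autoImplicit false
set_option linter.unusedSectionVars false
set_option linter.unusedSimpArgs false
set_option linter.style.haveILetI false

namespace Cfsg.Agent.H18.PS

open Subgroup Pointwise
open scoped commutatorElement
open Cfsg.Agent.H13.Syl
open Cfsg.Agent.H18.KS (commutator_le_left_of mem_sup_of_norm le_normalizer_iff_conj)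

variable {G : Type*} [Group G]

theorem core_false [Finite G] {p : ℕ} [hp : Fact p.Prime] (hp2 : p ≠ 2) (R : Subgroup G) (hRn : R.Normal)
    (hR : IsPGroup p R) (hCR : centralizer (R : Set G) ≤ R) {X : Subgroup G} {b : G}
    (hbX : b ∈ normalizer (X : Set G)) (hbp : b ^ p = 1) (hb1 : b ≠ 1) (hXp : (Nat.card X).Coprime p) (hXne : X ≠ ⊥)
    (E : Subgroup G) (hEX : E ≤ centralizer (X : Set G)) (hEc : Nat.card E ≤ p)
    (hE : ∀ r ∈ R, r * b = b * r → r ^ p = 1 → r ∈ E) (hfix : ∀ x ∈ X, b * x = x * b → x = 1) : False := by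
  classical
  have hNR : ∀ L : Subgroup G, L ≤ normalizer (R : Set G) := fun L => by rw [normalizer_eq_top]; exact le_top
  set s : Set (Subgroup G) := {T | T ≤ R ∧ X ≤ normalizer (T : Set G) ∧ b ∈ normalizer (T : Set G) ∧
    ¬ X ≤ centralizer (T : Set G)} with hs
  have hsR : R ∈ s := by
    refine ⟨le_rfl, hNR X, by rw [normalizer_eq_top]; trivial, ?_⟩
    intro h1
    apply hXne
    rw [eq_bot_iff]
    intro x hx
    have h2 : x ∈ R := hCR (h1 hx)
    have h3 := H22.Basic.inf_eq_bot_of_coprime (N := X) (K := R) (by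
      obtain ⟨n, hn⟩ := IsPGroup.iff_card.mp hR
      rw [hn]; exact Nat.Coprime.pow_right n hXp)
    rw [← h3]; exact ⟨hx, h2⟩
  obtain ⟨T, hT⟩ := (Set.toFinite s).exists_minimal ⟨R, hsR⟩
  obtain ⟨⟨hTR, hXT, hbT, hne⟩, hmin'⟩ := hT
  have hTp : IsPGroup p T := hR.to_le hTR
  have hmin : ∀ S < T, X ≤ normalizer (S : Set G) → b ∈ normalizer (S : Set G) → X ≤ centralizer (S : Set G) := by
    intro S hST h1 h2
    by_contra h3
    exact absurd (hmin' (show S ∈ s from ⟨hST.le.trans hTR, h1, h2, h3⟩) hST.le) (not_le_of_gt hST)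
  have hcop : (Nat.card X).Coprime (Nat.card T) := by
    obtain ⟨n, hn⟩ := IsPGroup.iff_card.mp hTp
    rw [hn]; exact Nat.Coprime.pow_right n hXp
  have hTs : Group.IsSolvable T := by
    haveI := hTp.isNilpotent
    infer_instance
  have hbz : zpowers b ≤ normalizer (T : Set G) := by rw [zpowers_le]; exact hbT
  have hbzX : zpowers b ≤ normalizer (X : Set G) := by rw [zpowers_le]; exact hbX
  have hTX : ⁅T, X⁆ = T := by
    by_contra h1
    have h2 : ⁅T, X⁆ < T := lt_of_le_of_ne (commutator_le_left_of hXT) h1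
    have h3 := hmin _ h2 (H22.Basic.right_le_normalizer_commutator _ _)
      (H22.Basic.le_normalizer_commutator hbz hbzX (mem_zpowers b))
    have h4 := H1.Coprime.commutator_commutator_eq X T hXT hcop (Or.inr hTs)
    have h5 : ⁅⁅T, X⁆, X⁆ = ⊥ := by rw [H22.Coprime3.commutator_eq_bot_iff']; exact h3
    rw [h5] at h4
    apply hne
    rw [← H22.Coprime3.commutator_eq_bot_iff', ← h4]
  have hTne : T ≠ ⊥ := by
    intro hb
    apply hne
    rw [hb]
    intro x _ y hy
    have : y = 1 := by simpa using hy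
    rw [this]; group
  have hDT : ⁅T, T⁆ ≤ T := commutator_le_left_of le_normalizer
  have hDlt : ⁅T, T⁆ < T := by
    refine lt_of_le_of_ne hDT fun h1 => hTne ?_
    exact H22.Coprime3.eq_bot_of_le_commutator_of_isPGroup hTp h1.ge
  have hXD : X ≤ normalizer ((⁅T, T⁆ : Subgroup G) : Set G) := H22.Basic.le_normalizer_commutator hXT hXT
  have hbD : b ∈ normalizer ((⁅T, T⁆ : Subgroup G) : Set G) := H22.Basic.le_normalizer_commutator hbz hbz (mem_zpowers b)
  have hXcD := hmin _ hDlt hXD hbD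
  have hcen : ⁅T, T⁆ ≤ centralizer (T : Set G) := by
    rw [← commutator_eq_bot_iff_le_centralizer, commutator_comm]
    have h1 : ⁅⁅X, T⁆, ⁅T, T⁆⁆ = ⊥ := by
      apply commutator_commutator_eq_bot_of_rotate
      · have : ⁅T, ⁅T, T⁆⁆ ≤ ⁅T, T⁆ := by
          rw [commutator_comm]
          exact commutator_le_left_of (H22.Basic.left_le_normalizer_commutator _ _)
        rw [eq_bot_iff, ← (H22.Coprime3.commutator_eq_bot_iff' (K := (⁅T, T⁆ : Subgroup G)) (A := X)).mpr hXcD]
        exact commutator_mono this le_rfl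
      · rw [(H22.Coprime3.commutator_eq_bot_iff' (K := (⁅T, T⁆ : Subgroup G)) (A := X)).mpr hXcD, commutator_bot_left]
    rwa [commutator_comm X T, hTX] at h1
  have hcc : ∀ d ∈ ⁅T, T⁆, ∀ t ∈ T, Commute d t := fun d hd t ht => (hcen hd t ht).symm
  let Ω : Subgroup G :=
    { carrier := {t | t ∈ T ∧ t ^ p = 1}
      one_mem' := ⟨T.one_mem, one_pow p⟩
      mul_mem' := by
        rintro x y ⟨hx1, hx2⟩ ⟨hy1, hy2⟩
        refine ⟨T.mul_mem hx1 hy1, ?_⟩
        set c := y⁻¹ * x⁻¹ * y * x with hc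
        have hcD : c ∈ ⁅T, T⁆ := by
          have := commutator_mem_commutator (T.inv_mem hy1) (T.inv_mem hx1)
          rw [commutatorElement_def, inv_inv, inv_inv] at this
          exact this
        have h1 : y * x = x * y * c := by rw [hc]; group
        have h2 : c ^ p = 1 := H22.ClassTwo.pow_eq_one_of_central h1 (hcc c hcD y hy1) (by rw [hy2]; exact Commute.one_left x)
        rw [H22.ClassTwo.mul_pow_prime hp.out hp2 h1 (hcc c hcD x hx1) (hcc c hcD y hy1) h2, hx2, hy2, one_mul]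
      inv_mem' := by
        rintro x ⟨hx1, hx2⟩
        exact ⟨T.inv_mem hx1, by rw [inv_pow, hx2, inv_one]⟩ }
  have hΩT : Ω ≤ T := fun t ht => ht.1
  have hΩn : ∀ g : G, g ∈ normalizer (T : Set G) → g ∈ normalizer (Ω : Set G) := by
    intro g hg
    apply mem_normalizer_fintype
    rintro t ⟨ht1, ht2⟩
    exact ⟨(mem_normalizer_iff.mp hg _).mp ht1, by rw [conj_pow, ht2]; group⟩
  have hexp : ∀ t ∈ T, t ^ p = 1 := by
    by_contra hcon
    have hΩne : Ω ≠ T := by
      intro h1
      apply hcon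
      intro t ht
      rw [← h1] at ht
      exact ht.2
    have h1 := hmin Ω (lt_of_le_of_ne hΩT hΩne) (fun x hx => hΩn x (hXT hx)) (hΩn b hbT)
    apply hne
    apply H22.Coprime3.omega_one hp2 hXT hTp hXp
    intro x hx hxp a ha
    exact (h1 ha x ⟨hx, hxp⟩).symm
  have hCfg : Cfg p T X b :=
    { Tp := hTp, XT := hXT, bT := hbT, bX := hbX, bp := hbp, b1 := hb1, Xp := hXp, fix := hfix, TX := hTX, cen := hcen
      exp := hexp, min := hmin, ne := hne }
  have hTE : T ⊓ centralizer ({b} : Set G) ≤ E := by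
    rintro t ⟨ht1, ht2⟩
    have ht3 : t ∈ centralizer ({b} : Set G) := ht2
    rw [mem_centralizer_singleton_iff] at ht3
    exact hE t (hTR ht1) ht3 (hexp t ht1)
  exact hCfg.false hp2 ((card_le_of_le hTE).trans hEc) (hTE.trans hEX)

/-- the statement when `O_{p'}(G) = 1` -/
theorem core_case [Finite G] {p : ℕ} [hp : Fact p.Prime] (hp2 : p ≠ 2) (hG : Cfsg.IsPSolvable p G)
    (h1 : Cfsg.pPrimeCore p G = ⊥) {B X : Subgroup G} (hBc : ∀ x ∈ B, ∀ y ∈ B, x * y = y * x) (hBp : ∀ x ∈ B, x ^ p = 1)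
    (hBcard : Nat.card B ∣ p ^ 2) {b : G} (hb : b ∈ B) (hb1 : b ≠ 1)
    (hE : ∀ r ∈ Cfsg.pCore p G, r * b = b * r → r ^ p = 1 → r ∈ B)
    (hXp : (Nat.card X).Coprime p) (hBX : B ≤ normalizer (X : Set G)) : X = ⊥ := by
  classical
  set R := Cfsg.pCore p G with hR
  have hRn : R.Normal := Cfsg.pCore_normal p G
  have hRp : IsPGroup p ↥R := H1.Nilp.pCore_isPGroup p
  have hCR : centralizer (R : Set G) ≤ R := H22.PSolv.centralizer_pCore_le hG h1
  have hXR : X ⊓ R = ⊥ := H22.Basic.inf_eq_bot_of_coprime (by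
    obtain ⟨n, hn⟩ := IsPGroup.iff_card.mp hRp
    rw [hn]; exact Nat.Coprime.pow_right n hXp)
  have hEX : B ⊓ R ≤ centralizer (X : Set G) := by
    rintro e ⟨he1, he2⟩ x hx
    have h2 : x * e * x⁻¹ * e⁻¹ ∈ X ⊓ R := by
      refine ⟨?_, R.mul_mem (hRn.conj_mem e he2 x) (R.inv_mem he2)⟩
      have e1 : x * e * x⁻¹ * e⁻¹ = x * (e * x⁻¹ * e⁻¹) := by group
      rw [e1]
      exact X.mul_mem hx ((mem_normalizer_iff.mp (hBX he1) _).mp (X.inv_mem hx))
    rw [hXR, mem_bot] at h2
    calc x * e = (x * e * x⁻¹ * e⁻¹) * (e * x) := by group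
      _ = e * x := by rw [h2, one_mul]
  -- the fixed points
  set C := X ⊓ centralizer ({b} : Set G) with hC
  have hCbot : C = ⊥ := by
    have hCp : (Nat.card C).Coprime p := Nat.Coprime.coprime_dvd_left (card_dvd_of_le inf_le_left) hXp
    have hNR : ∀ L : Subgroup G, L ≤ normalizer (R : Set G) := fun L => by rw [normalizer_eq_top]; exact le_top
    have hCb : C ≤ centralizer (zpowers b : Set G) := by
      rintro x ⟨-, hx⟩ y hy
      have hx' : x ∈ centralizer ({b} : Set G) := hx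
      rw [mem_centralizer_singleton_iff] at hx'
      obtain ⟨i, rfl⟩ := mem_zpowers_iff.mp hy
      have : Commute b x := hx'.symm
      exact (this.zpow_left i).eq
    have hstep : C ≤ centralizer ((R ⊓ centralizer (zpowers b : Set G) : Subgroup G) : Set G) := by
      apply H22.Coprime3.omega_one hp2 _ (hRp.to_le inf_le_left) hCp
      · rintro r ⟨hr1, hr2⟩ hrp a ha
        have h3 : r ∈ B := hE r hr1 ((hr2 b (mem_zpowers b)).symm) hrp
        exact hEX ⟨h3, hr1⟩ a ha.1
      · rw [le_normalizer_iff_conj]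
        rintro c hc r ⟨hr1, hr2⟩
        refine ⟨hRn.conj_mem r hr1 c, ?_⟩
        intro y hy
        have c1 : Commute y c := hCb hc y hy
        have c2 : Commute y r := hr2 y hy
        exact ((c1.mul_right c2).mul_right c1.inv_right).eq
    have hbp : IsPGroup p (zpowers b) := by
      apply IsPGroup.of_card (n := 1)
      rw [Nat.card_zpowers, pow_one]
      exact orderOf_eq_prime (hBp b hb) hb1
    have h3 := H1.Coprime.p_times_q p (zpowers b) C R hbp hCp hRp (by rw [le_centralizer_iff]; exact hCb) (hNR _) (hNR _)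
      (by rw [le_centralizer_iff]; exact hstep)
    rw [eq_bot_iff, ← hXR]
    exact le_inf inf_le_left (h3.trans hCR)
  by_contra hXne
  have hfix : ∀ x ∈ X, b * x = x * b → x = 1 := by
    intro x hx hbx
    have : x ∈ C := by
      refine ⟨hx, ?_⟩
      change x ∈ centralizer ({b} : Set G)
      rw [mem_centralizer_singleton_iff]; exact hbx.symm
    rwa [hCbot, mem_bot] at this
  have hbR : b ∉ R := by
    intro hbR
    apply hXne
    rw [eq_bot_iff]
    intro x hx
    exact mem_bot.mpr (hfix x hx (hEX ⟨hb, hbR⟩ x hx).symm)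
  have hEcard : Nat.card ↥(B ⊓ R : Subgroup G) ≤ p := by
    have h2 : Nat.card ↥(B ⊓ R : Subgroup G) ∣ p ^ 2 := (card_dvd_of_le inf_le_left).trans hBcard
    obtain ⟨j, hj, hj2⟩ := (Nat.dvd_prime_pow hp.out).mp h2
    rw [hj2]
    have hj1 : j ≤ 1 := by
      by_contra h3
      have hj3 : j = 2 := by omega
      apply hbR
      have h4 : B ⊓ R = B := by
        apply Subgroup.eq_of_le_of_card_ge inf_le_left
        rw [hj2, hj3]
        exact Nat.le_of_dvd (pow_pos hp.out.pos 2) hBcard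
      rw [← h4] at hb
      exact hb.2
    calc p ^ j ≤ p ^ 1 := Nat.pow_le_pow_right hp.out.pos hj1
      _ = p := pow_one p
  exact core_false hp2 R hRn hRp hCR (hBX hb) (hBp b hb) hb1 hXp hXne (B ⊓ R) hEX hEcard
    (fun r hr h2 h3 => ⟨hE r hr h2 h3, hr⟩) hfix

end Cfsg.Agent.H18.PS
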