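import Mathlib
import Cfsg.Agent.H18_BB1
import Cfsg.Agent.H24_Sub
import Cfsg.Agent.H11_Cores

/-!
# Subnormalizers of `p`-subgroups
-/

set_option autoImplicit false
set_option linter.unusedSectionVars false
set_option linter.unusedSimpArgs false
set_option linter.style.haveILetI false

namespace Cfsg.Agent.H18.SN

open Subgroup Pointwise
open scoped commutatorElement
open Cfsg.Agent.H13.Syl
open Cfsg.Agent.H18.CharP
open Cfsg.Agent.H18.KS (commutator_le_left_of mem_sup_of_norm le_normalizer_iff_conj)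

variable {G : Type*} [Group G]

/-- `g` lies in the subnormalizer of `H` -/
abbrev Snz (H : Subgroup G) (g : G) : Prop := (H.subgroupOf (H ⊔ zpowers g)).IsSubnormal

theorem norm_inf {H K N : Subgroup G} (h1 : N ≤ normalizer (H : Set G)) (h2 : N ≤ normalizer (K : Set G)) :
    N ≤ normalizer ((H ⊓ K : Subgroup G) : Set G) := by
  rw [le_normalizer_iff_conj] at *
  exact fun n hn k hk => ⟨h1 n hn k hk.1, h2 n hn k hk.2⟩

theorem snz_iff [Finite G] {p : ℕ} [Fact p.Prime] {H : Subgroup G} (hH : IsPGroup p ↥H) (g : G) :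
    Snz H g ↔ ∃ R : Subgroup G, IsPGroup p ↥R ∧ H ≤ R ∧ g ∈ normalizer (R : Set G) := by
  constructor
  · intro h
    have hle : H ≤ H ⊔ zpowers g := le_sup_left
    have hHp : IsPGroup p ↥(H.subgroupOf (H ⊔ zpowers g)) := hH.comap_of_injective _ (subtype_injective _)
    have h1 : H.subgroupOf (H ⊔ zpowers g) ≤ Cfsg.pCore p ↥(H ⊔ zpowers g) :=
      H11.Cores.le_pCore_of_isSubnormal p h hHp
    refine ⟨oP p (H ⊔ zpowers g), oP_isPGroup _, ?_, ?_⟩
    · intro x hx
      exact ⟨⟨x, hle hx⟩, h1 hx, rfl⟩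
    · exact le_normalizer_oP _ (le_normalizer ((le_sup_right : zpowers g ≤ _) (mem_zpowers g)))
  · rintro ⟨R, hR, hHR, hg⟩
    set X := H ⊔ zpowers g with hX
    have hXR : X ≤ normalizer (R : Set G) := sup_le (hHR.trans le_normalizer) (by rwa [zpowers_le])
    have hHX : H ≤ X := le_sup_left
    set N := R ⊓ X with hN
    have hNX : N ≤ X := inf_le_right
    have hNn : (N.subgroupOf X).Normal :=
      (normal_subgroupOf_iff_le_normalizer hNX).mpr (norm_inf hXR le_normalizer)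
    have hNp : IsPGroup p ↥(N.subgroupOf X) := (hR.to_le inf_le_left).comap_of_injective _ (subtype_injective _)
    refine IsSubnormal.trans (K := N.subgroupOf X) ?_ ?_ hNn.isSubnormal
    · intro x hx
      exact ⟨hHR hx, x.2⟩
    · exact H24.Sub.isSubnormal_of_nilpotent hNp.isNilpotent _

theorem snz_radical [Finite G] {p : ℕ} [Fact p.Prime] {H : Subgroup G} (hH : IsPGroup p ↥H) (g : G) :
    Snz H g ↔ ∃ R : Subgroup G, H ≤ R ∧ oP p (normalizer (R : Set G)) = R ∧ g ∈ normalizer (R : Set G) := by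
  rw [snz_iff hH]
  constructor
  · rintro ⟨R, hR, hHR, hg⟩
    set s : Set (Subgroup G) := {R | IsPGroup p ↥R ∧ H ≤ R ∧ g ∈ normalizer (R : Set G)} with hs
    obtain ⟨R', hR'⟩ := (Set.toFinite s).exists_maximal ⟨R, hR, hHR, hg⟩
    obtain ⟨⟨h1, h2, h3⟩, hmax⟩ := hR'
    refine ⟨R', h2, ?_, h3⟩
    have hle : R' ≤ oP p (normalizer (R' : Set G)) := le_oP h1 le_normalizer le_rfl
    have hmem : oP p (normalizer (R' : Set G)) ∈ s :=
      ⟨oP_isPGroup _, h2.trans hle, le_normalizer_oP _ (le_normalizer h3)⟩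
    exact le_antisymm (hmax hmem hle) hle
  · rintro ⟨R, hHR, hR, hg⟩
    exact ⟨R, by rw [← hR]; exact oP_isPGroup _, hHR, hg⟩

/-- the intersection of the Sylow subgroups containing `H` -/
abbrev Hst (p : ℕ) (H : Subgroup G) : Subgroup G :=
  sInf {K : Subgroup G | ∃ Q : Sylow p G, H ≤ (Q : Subgroup G) ∧ K = (Q : Subgroup G)}

theorem le_Hst (p : ℕ) (H : Subgroup G) : H ≤ Hst p H := by
  refine le_sInf ?_
  rintro K ⟨Q, hQ, rfl⟩
  exact hQ

theorem Hst_le {p : ℕ} {H : Subgroup G} (Q : Sylow p G) (hQ : H ≤ Q) : Hst p H ≤ Q := sInf_le ⟨Q, hQ, rfl⟩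

theorem Hst_pgroup [Finite G] {p : ℕ} [Fact p.Prime] {H : Subgroup G} (hH : IsPGroup p ↥H) : IsPGroup p ↥(Hst p H) := by
  obtain ⟨Q, hQ⟩ := hH.exists_le_sylow
  exact Q.isPGroup'.to_le (Hst_le Q hQ)

theorem norm_Hst {p : ℕ} (H : Subgroup G) : normalizer (H : Set G) ≤ normalizer (Hst p H : Set G) := by
  rw [le_normalizer_iff_conj]
  intro n hn x hx
  rw [mem_sInf]
  rintro K ⟨Q, hQ, rfl⟩
  have h1 : H ≤ ((n⁻¹ • Q : Sylow p G) : Subgroup G) := by
    intro h hh
    rw [Sylow.coe_subgroup_smul, Subgroup.mem_pointwise_smul_iff_inv_smul_mem]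
    have : n * h * n⁻¹ ∈ H := (mem_normalizer_iff.mp hn h).mp hh
    simpa [MulAut.smul_def] using hQ this
  have h2 : x ∈ ((n⁻¹ • Q : Sylow p G) : Subgroup G) := Hst_le _ h1 hx
  rw [Sylow.coe_subgroup_smul, Subgroup.mem_pointwise_smul_iff_inv_smul_mem] at h2
  simpa [MulAut.smul_def] using h2

theorem Hst_radical [Finite G] {p : ℕ} [Fact p.Prime] {R : Subgroup G} (hR : oP p (normalizer (R : Set G)) = R) :
    Hst p R = R := by
  have hRp : IsPGroup p ↥R := by rw [← hR]; exact oP_isPGroup _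
  have hXp := Hst_pgroup hRp
  by_contra hne
  have hlt : R < Hst p R := lt_of_le_of_ne (le_Hst p R) (Ne.symm hne)
  have h1 := lt_normalizer_of_lt hXp hlt
  have h2 : Hst p R ⊓ normalizer (R : Set G) ≤ oP p (normalizer (R : Set G)) :=
    le_oP (hXp.to_le inf_le_left) inf_le_right (norm_inf (norm_Hst R) le_normalizer)
  rw [hR] at h2
  exact absurd h2 (not_le_of_gt h1)

theorem snz_Hst [Finite G] {p : ℕ} [Fact p.Prime] {H : Subgroup G} (hH : IsPGroup p ↥H) (g : G) :
    Snz H g ↔ Snz (Hst p H) g := by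
  constructor
  · intro h
    obtain ⟨R, hHR, hR, hg⟩ := (snz_radical hH g).mp h
    rw [snz_iff (Hst_pgroup hH)]
    have hRp : IsPGroup p ↥R := by rw [← hR]; exact oP_isPGroup _
    refine ⟨R, hRp, ?_, hg⟩
    rw [← Hst_radical hR]
    refine le_sInf ?_
    rintro K ⟨Q, hQ, rfl⟩
    exact Hst_le Q (hHR.trans hQ)
  · intro h
    obtain ⟨R, hR, hHR, hg⟩ := (snz_iff (Hst_pgroup hH) g).mp h
    exact (snz_iff hH g).mpr ⟨R, hR, (le_Hst p H).trans hHR, hg⟩

end Cfsg.Agent.H18.SN
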