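import Mathlib
import Cfsg.Agent.H18_SN1
import Cfsg.Agent.H22_Coprime3
import Cfsg.Agent.H2_Card

/-!
# Counting the elements of the subnormalizer of a `p`-subgroup
-/

set_option autoImplicit false
set_option linter.unusedSectionVars false
set_option linter.unusedSimpArgs false
set_option linter.style.haveILetI false

namespace Cfsg.Agent.H18.SN

open Subgroup Pointwise
open scoped commutatorElement
open Cfsg.Agent.H13.Syl
open Cfsg.Agent.H18.CharP
open Cfsg.Agent.H18.KS (commutator_le_left_of mem_sup_of_norm le_normalizer_iff_conj)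

open Classical in
theorem exists_weight {α : Type*} [Lattice α] [Fintype α] (H : α) :
    ∃ w : α → ℤ, ∀ T : α, H < T → ∑ X : α, (if H < X ∧ X ≤ T then w X else 0) = 1 := by
  letI : LocallyFiniteOrder α := Fintype.toLocallyFiniteOrder
  refine ⟨fun X => - IncidenceAlgebra.mu ℤ H X, ?_⟩
  intro T hT
  have h1 := IncidenceAlgebra.sum_Icc_mu_right (𝕜 := ℤ) H T
  rw [if_neg hT.ne, ← Finset.sum_Ioc_add_eq_sum_Icc hT.le, IncidenceAlgebra.mu_self] at h1
  have h2 : ∑ X : α, (if H < X ∧ X ≤ T then (- IncidenceAlgebra.mu ℤ H X) else 0) =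
      ∑ X ∈ Finset.Ioc H T, (- IncidenceAlgebra.mu ℤ H X) := by
    rw [← Finset.sum_filter]
    apply Finset.sum_congr
    · ext X; simp
    · intros; rfl
  rw [h2, Finset.sum_neg_distrib]
  linarith

section weights
variable {α : Type*} [Lattice α] [Fintype α] {H : α} {w : α → ℤ}

open Classical in
theorem fib (hw : ∀ T : α, H < T → ∑ X : α, (if H < X ∧ X ≤ T then w X else 0) = 1) {m : α} (hm : H < m) :
    ∀ Z : α, m ≤ Z → ∑ X : α, (if H < X ∧ X ⊔ m = Z then w X else 0) = if Z = m then 1 else 0 := by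
  intro Z
  induction Z using WellFoundedLT.induction with
  | ind Z ih =>
  intro hmZ
  set g : α → ℤ := fun Z' => ∑ X : α, (if H < X ∧ X ⊔ m = Z' then w X else 0) with hg
  have key : ∑ Z' : α, (if m ≤ Z' ∧ Z' ≤ Z then g Z' else 0) = 1 := by
    rw [← hw Z (hm.trans_le hmZ)]
    have h1 : ∀ Z' : α, (if m ≤ Z' ∧ Z' ≤ Z then g Z' else 0) =
        ∑ X : α, (if (m ≤ Z' ∧ Z' ≤ Z) ∧ (H < X ∧ X ⊔ m = Z') then w X else 0) := by
      intro Z'
      by_cases h : m ≤ Z' ∧ Z' ≤ Z
      · rw [if_pos h, hg]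
        apply Finset.sum_congr rfl
        intro X _
        simp [h]
      · rw [if_neg h]
        symm
        apply Finset.sum_eq_zero
        intro X _
        rw [if_neg (fun h' => h h'.1)]
    rw [Finset.sum_congr rfl (fun Z' _ => h1 Z'), Finset.sum_comm]
    apply Finset.sum_congr rfl
    intro X _
    rw [Finset.sum_eq_single (X ⊔ m)]
    · have : ((m ≤ X ⊔ m ∧ X ⊔ m ≤ Z) ∧ H < X ∧ X ⊔ m = X ⊔ m) ↔ (H < X ∧ X ≤ Z) := by
        constructor
        · rintro ⟨⟨-, h2⟩, h3, -⟩
          exact ⟨h3, le_sup_left.trans h2⟩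
        · rintro ⟨h1, h2⟩
          exact ⟨⟨le_sup_right, sup_le h2 hmZ⟩, h1, rfl⟩
      exact if_congr this rfl rfl
    · intro Z' _ hne
      rw [if_neg]
      rintro ⟨-, -, h⟩
      exact hne h.symm
    · intro h; exact absurd (Finset.mem_univ _) h
  have h2 : ∀ Z' : α, (if m ≤ Z' ∧ Z' ≤ Z then g Z' else 0) =
      (if Z' = Z then g Z else 0) + (if Z' = m then (if m = Z then 0 else 1) else 0) := by
    intro Z'
    by_cases h : m ≤ Z' ∧ Z' ≤ Z
    · rw [if_pos h]
      by_cases hZ : Z' = Z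
      · subst hZ
        rw [if_pos rfl]
        by_cases hm' : Z' = m
        · rw [if_pos hm', if_pos hm'.symm, add_zero]
        · rw [if_neg hm', add_zero]
      · rw [if_neg hZ, zero_add]
        have h3 := ih Z' (lt_of_le_of_ne h.2 hZ) h.1
        have h4 : g Z' = if Z' = m then 1 else 0 := h3
        rw [h4]
        by_cases hm' : Z' = m
        · rw [if_pos hm', if_pos hm', if_neg (by rw [← hm']; exact hZ)]
        · rw [if_neg hm', if_neg hm']
    · rw [if_neg h]
      have h3 : Z' ≠ Z := by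
        rintro rfl; exact h ⟨hmZ, le_rfl⟩
      have h4 : Z' ≠ m := by
        rintro rfl; exact h ⟨le_rfl, hmZ⟩
      rw [if_neg h3, if_neg h4, add_zero]
  rw [Finset.sum_congr rfl (fun Z' _ => h2 Z'), Finset.sum_add_distrib, Finset.sum_ite_eq' , Finset.sum_ite_eq',
    if_pos (Finset.mem_univ _), if_pos (Finset.mem_univ _)] at key
  by_cases hZm : Z = m
  · rw [if_pos hZm]
    rw [if_pos hZm.symm, add_zero] at key
    exact key
  · rw [if_neg hZm]
    rw [if_neg (Ne.symm hZm)] at key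
    have : g Z = 0 := by linarith
    exact this

open Classical in
theorem fam (hw : ∀ T : α, H < T → ∑ X : α, (if H < X ∧ X ≤ T then w X else 0) = 1) {m : α} (hm : H < m)
    {A : α → Prop} (hsub : ∀ X, A X → H < X) (hdown : ∀ X Y, H < X → X ≤ Y → A Y → A X) (hAm : A m)
    (hjoin : ∀ X, A X → A (X ⊔ m)) : ∑ X : α, (if A X then w X else 0) = 1 := by
  have h1 : ∀ X : α, (if A X then w X else 0) = ∑ Z : α, (if A X ∧ X ⊔ m = Z then w X else 0) := by
    intro X
    rw [Finset.sum_eq_single (X ⊔ m)]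
    · simp
    · intro Z' _ hne
      rw [if_neg]
      rintro ⟨-, h⟩
      exact hne h.symm
    · intro h; exact absurd (Finset.mem_univ _) h
  rw [Finset.sum_congr rfl (fun X _ => h1 X), Finset.sum_comm]
  have h2 : ∀ Z : α, ∑ X : α, (if A X ∧ X ⊔ m = Z then w X else 0) = if Z = m then 1 else 0 := by
    intro Z
    by_cases hZ : A Z ∧ m ≤ Z
    · rw [← fib hw hm Z hZ.2]
      apply Finset.sum_congr rfl
      intro X _
      have : (A X ∧ X ⊔ m = Z) ↔ (H < X ∧ X ⊔ m = Z) := by
        constructor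
        · rintro ⟨h3, h4⟩
          exact ⟨hsub X h3, h4⟩
        · rintro ⟨h3, h4⟩
          exact ⟨hdown X Z h3 (by rw [← h4]; exact le_sup_left) hZ.1, h4⟩
      simp only [this]
    · have h3 : Z ≠ m := by
        rintro rfl; exact hZ ⟨hAm, le_rfl⟩
      rw [if_neg h3]
      apply Finset.sum_eq_zero
      intro X _
      rw [if_neg]
      rintro ⟨h4, rfl⟩
      exact hZ ⟨hjoin X h4, le_sup_right⟩
  rw [Finset.sum_congr rfl (fun Z _ => h2 Z), Finset.sum_ite_eq', if_pos (Finset.mem_univ _)]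

end weights

section grp
variable {G : Type*} [Group G] [Finite G] [Fintype (Subgroup G)] {p : ℕ} [hp : Fact p.Prime]

theorem eq_of_sup_frattini {X T : Subgroup G} (hXT : X ≤ T) (h : X ⊔ (frattini ↥T).map T.subtype = T) : X = T := by
  have h1 : X.subgroupOf T ⊔ frattini ↥T = ⊤ := by
    apply Subgroup.map_injective T.subtype_injective
    rw [Subgroup.map_sup, Subgroup.subgroupOf_map_subtype, inf_eq_left.mpr hXT, h, ← MonoidHom.range_eq_map, range_subtype]
  have h2 := frattini_nongenerating h1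
  rw [subgroupOf_eq_top] at h2
  exact le_antisymm hXT h2

open Classical in
theorem vanish {H T : Subgroup G} {w : Subgroup G → ℤ}
    (hw : ∀ T : Subgroup G, H < T → ∑ X : Subgroup G, (if H < X ∧ X ≤ T then w X else 0) = 1)
    (hT : IsPGroup p ↥T) (hHT : H < T) (hn : ¬ T ≤ normalizer (H : Set G)) : w T = 0 := by
  set m := H ⊔ (frattini ↥T).map T.subtype with hm
  have hΦT : (frattini ↥T).map T.subtype ≤ T := map_subtype_le _
  have hHm : H < m := by
    refine lt_of_le_of_ne le_sup_left ?_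
    intro he
    apply hn
    have hΦ : (frattini ↥T).map T.subtype ≤ H := by rw [he]; exact le_sup_right
    rw [le_normalizer_iff_conj]
    intro t ht h hh
    have h1 : ⁅t, h⁆ ∈ H := hΦ (H22.Coprime3.commutator_le_map_frattini hT (commutator_mem_commutator ht (hHT.le hh)))
    have e1 : t * h * t⁻¹ = ⁅t, h⁆ * h := by rw [commutatorElement_def]; group
    rw [e1]; exact mul_mem h1 hh
  have hmT : m ≤ T := sup_le hHT.le hΦT
  have hne : T ≠ m := by
    intro he
    exact hHT.ne (eq_of_sup_frattini hHT.le he.symm)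
  have h1 := fib hw hHm T hmT
  rw [if_neg hne, Finset.sum_eq_single T] at h1
  · rwa [if_pos ⟨hHT, sup_eq_left.mpr hmT⟩] at h1
  · intro X _ hXT
    rw [if_neg]
    rintro ⟨h2, h3⟩
    apply hXT
    have hXT' : X ≤ T := by rw [← h3]; exact le_sup_left
    apply eq_of_sup_frattini hXT'
    rw [hm, ← sup_assoc, sup_eq_left.mpr h2.le] at h3
    exact h3
  · intro h; exact absurd (Finset.mem_univ _) h

variable [Fintype G]

open Classical in
/-- the number of elements of `N` in the subnormalizer of `H` -/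
noncomputable def sN (N H : Subgroup G) : ℤ := ∑ g : G, (if g ∈ N ∧ Snz H g then 1 else 0)

open Classical in
/-- the number of elements of `N` conjugating `H` into `P` -/
noncomputable def fN (N P H : Subgroup G) : ℤ := ∑ g : G, (if g ∈ N ∧ cj g H ≤ P then 1 else 0)

open Classical in
theorem fsum {N P H : Subgroup G} {w : Subgroup G → ℤ}
    (hw : ∀ T : Subgroup G, H < T → ∑ X : Subgroup G, (if H < X ∧ X ≤ T then w X else 0) = 1)
    (hPN : P ≤ N) (hP : IsPGroup p ↥P) (hlt : Nat.card H < Nat.card P) :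
    ∑ T : Subgroup G, (if H < T ∧ T ≤ N ∧ IsPGroup p ↥T then w T * fN N P T else 0) = fN N P H := by
  have h1 : ∀ T : Subgroup G, (if H < T ∧ T ≤ N ∧ IsPGroup p ↥T then w T * fN N P T else 0) =
      ∑ g : G, (if (H < T ∧ T ≤ N ∧ IsPGroup p ↥T) ∧ (g ∈ N ∧ cj g T ≤ P) then w T else 0) := by
    intro T
    by_cases h : H < T ∧ T ≤ N ∧ IsPGroup p ↥T
    · rw [if_pos h, fN, Finset.mul_sum]
      apply Finset.sum_congr rfl
      intro g _
      by_cases h' : g ∈ N ∧ cj g T ≤ P
      · rw [if_pos h', if_pos ⟨h, h'⟩, mul_one]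
      · rw [if_neg h', if_neg (fun h'' => h' h''.2), mul_zero]
    · rw [if_neg h]
      symm
      apply Finset.sum_eq_zero
      intro g _
      rw [if_neg (fun h'' => h h''.1)]
  rw [Finset.sum_congr rfl (fun T _ => h1 T), Finset.sum_comm, fN]
  apply Finset.sum_congr rfl
  intro g _
  by_cases hg : g ∈ N ∧ cj g H ≤ P
  · rw [if_pos hg]
    have hHP : H ≤ cj g⁻¹ P := cj_le_iff.mp hg.2
    have hHlt : H < cj g⁻¹ P := by
      refine lt_of_le_of_ne hHP ?_
      intro he
      have h2 : Nat.card H = Nat.card P := by rw [he, card_cj]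
      omega
    rw [← hw _ hHlt]
    apply Finset.sum_congr rfl
    intro T _
    have hcN : cj g⁻¹ P ≤ N := by
      rw [cj_le_iff_forall]
      intro a ha
      exact N.mul_mem (N.mul_mem (N.inv_mem hg.1) (hPN ha)) (N.inv_mem (N.inv_mem hg.1))
    have : ((H < T ∧ T ≤ N ∧ IsPGroup p ↥T) ∧ (g ∈ N ∧ cj g T ≤ P)) ↔ (H < T ∧ T ≤ cj g⁻¹ P) := by
      constructor
      · rintro ⟨⟨h2, -, -⟩, -, h3⟩
        exact ⟨h2, cj_le_iff.mp h3⟩
      · rintro ⟨h2, h3⟩
        exact ⟨⟨h2, h3.trans hcN, (isPGroup_cj hP).to_le h3⟩, hg.1, cj_le_iff.mpr h3⟩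
    simp only [this]
  · rw [if_neg hg]
    apply Finset.sum_eq_zero
    intro T _
    rw [if_neg]
    rintro ⟨⟨h2, -, -⟩, h3, h4⟩
    exact hg ⟨h3, (cj_mono h2.le).trans h4⟩

theorem snz_of_norm {H : Subgroup G} (hH : IsPGroup p ↥H) {g : G} (hg : g ∈ normalizer (H : Set G)) : Snz H g :=
  (snz_iff hH g).mpr ⟨H, hH, le_rfl, hg⟩

open Classical in
/-- case of a Sylow subgroup -/
theorem count_sylow {N P H : Subgroup G} (hHN : H ≤ N) (hH : IsPGroup p ↥H) (hP : IsSylIn p P N)
    (hle : Nat.card P ≤ Nat.card H) : sN N H = fN N P H := by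
  have hHS : IsSylIn p H N := isSylIn_of_card_le hP hHN hH hle
  obtain ⟨y, hy, hyP⟩ := hP.exists_conj_eq hHS
  have h1 : ∀ g ∈ N, (Snz H g ↔ g ∈ normalizer (H : Set G)) := by
    intro g hg
    constructor
    · intro h
      obtain ⟨R, hR, hHR, hgR⟩ := (snz_iff hH g).mp h
      have h2 : R ⊓ N = H := hHS.eq_of_le (hR.to_le inf_le_left) inf_le_right (le_inf hHR hHN)
      have h3 : zpowers g ≤ normalizer ((R ⊓ N : Subgroup G) : Set G) :=
        norm_inf (zpowers_le.mpr hgR) ((zpowers_le.mpr hg).trans le_normalizer)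
      rw [h2] at h3
      exact h3 (mem_zpowers g)
    · exact snz_of_norm hH
  rw [sN, fN]
  rw [← Equiv.sum_comp (Equiv.mulLeft y) (fun g => if g ∈ N ∧ cj g H ≤ P then (1 : ℤ) else 0)]
  apply Finset.sum_congr rfl
  intro g _
  refine if_congr ?_ rfl rfl
  change (g ∈ N ∧ Snz H g) ↔ (y * g ∈ N ∧ cj (y * g) H ≤ P)
  have h2 : y * g ∈ N ↔ g ∈ N := N.mul_mem_cancel_left hy
  rw [h2, and_congr_right_iff]
  intro hg
  rw [h1 g hg, ← hyP, cj_mul, cj_le_cj_iff]
  constructor
  · intro h; exact (cj_eq_of_mem_normalizer h).le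
  · intro h
    rw [mem_normalizer_iff_cj]
    exact H2.Card.eq_of_le_of_card_eq h (card_cj g H)

open Classical in
theorem count : ∀ k : ℕ, ∀ N P H : Subgroup G, Nat.card N - Nat.card H = k → H ≤ N → IsPGroup p ↥H →
    IsSylIn p P N → sN N H = fN N P H := by
  intro k
  induction k using Nat.strong_induction_on with
  | _ k ih =>
  intro N P H hk hHN hH hP
  by_cases hle : Nat.card P ≤ Nat.card H
  · exact count_sylow hHN hH hP hle
  push_neg at hle
  obtain ⟨w, hw⟩ := exists_weight H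
  set M := N ⊓ normalizer (H : Set G) with hM
  have hHM : H ≤ M := le_inf hHN le_normalizer
  obtain ⟨Q, hQ⟩ := exists_isSylIn (p := p) M
  -- `H` is not a Sylow subgroup of `M`
  have hltQ : Nat.card H < Nat.card Q := by
    obtain ⟨y, hy, hyP⟩ := hP.exists_conj_le hH hHN
    have h1 : H ≤ cj y⁻¹ P := cj_le_iff.mp hyP
    have h2 : H < cj y⁻¹ P := by
      refine lt_of_le_of_ne h1 ?_
      intro he
      have h2 : Nat.card H = Nat.card P := by rw [he, card_cj]
      omega
    have h3 := lt_normalizer_of_lt (isPGroup_cj hP.isPGroup) h2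
    have h4 : cj y⁻¹ P ⊓ normalizer (H : Set G) ≤ M := by
      refine le_inf (inf_le_left.trans ?_) inf_le_right
      rw [cj_le_iff_forall]
      intro a ha
      exact N.mul_mem (N.mul_mem (N.inv_mem hy) (hP.1 ha)) (N.inv_mem (N.inv_mem hy))
    have h5 : IsPGroup p ↥(cj y⁻¹ P ⊓ normalizer (H : Set G)) := (isPGroup_cj hP.isPGroup).to_le inf_le_left
    obtain ⟨z, -, hz⟩ := hQ.exists_conj_le h5 h4
    have h6 : Nat.card H < Nat.card ↥(cj y⁻¹ P ⊓ normalizer (H : Set G)) := H2.Card.card_lt_of_lt h3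
    have h7 : Nat.card ↥(cj y⁻¹ P ⊓ normalizer (H : Set G)) ≤ Nat.card Q := by
      rw [← card_cj z]; exact Subgroup.card_le_of_le hz
    omega
  have hcard : ∀ T : Subgroup G, H < T → ∀ N' : Subgroup G, N' ≤ N → T ≤ N' →
      Nat.card N' - Nat.card T < Nat.card N - Nat.card H := by
    intro T hT N' hN' hTN'
    have h1 : Nat.card H < Nat.card T := H2.Card.card_lt_of_lt hT
    have h2 : Nat.card N' ≤ Nat.card N := Subgroup.card_le_of_le hN'
    have h3 : Nat.card T ≤ Nat.card N' := Subgroup.card_le_of_le hTN'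
    omega
  -- the sums over `T`
  have e1 : ∑ T : Subgroup G, (if H < T ∧ T ≤ N ∧ IsPGroup p ↥T then w T * sN N T else 0) = fN N P H := by
    rw [← fsum hw hP.1 hP.isPGroup hle]
    apply Finset.sum_congr rfl
    intro T _
    by_cases h : H < T ∧ T ≤ N ∧ IsPGroup p ↥T
    · rw [if_pos h, if_pos h, ih _ (by rw [← hk]; exact hcard T h.1 N le_rfl h.2.1) N P T rfl h.2.1 h.2.2 hP]
    · rw [if_neg h, if_neg h]
  have e2 : ∑ T : Subgroup G, (if H < T ∧ T ≤ N ∧ IsPGroup p ↥T then w T * sN M T else 0) = fN M Q H := by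
    rw [← fsum hw hQ.1 hQ.isPGroup hltQ]
    apply Finset.sum_congr rfl
    intro T _
    by_cases h : H < T ∧ T ≤ N ∧ IsPGroup p ↥T
    · rw [if_pos h]
      by_cases h' : T ≤ normalizer (H : Set G)
      · have hTM : T ≤ M := le_inf h.2.1 h'
        rw [if_pos ⟨h.1, hTM, h.2.2⟩,
          ih _ (by rw [← hk]; exact hcard T h.1 M inf_le_left hTM) M Q T rfl hTM h.2.2 hQ]
      · rw [vanish hw h.2.2 h.1 h', if_neg (fun h'' => h' (h''.2.1.trans inf_le_right)), zero_mul]
    · rw [if_neg h, if_neg]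
      rintro ⟨h1, h2, h3⟩
      exact h ⟨h1, h2.trans inf_le_left, h3⟩
  -- `fN M Q H = |M|`
  have e3 : fN M Q H = ∑ g : G, (if g ∈ M then (1 : ℤ) else 0) := by
    rw [fN]
    apply Finset.sum_congr rfl
    intro g _
    refine if_congr ?_ rfl rfl
    refine ⟨fun h => h.1, fun h => ⟨h, ?_⟩⟩
    rw [cj_eq_of_mem_normalizer h.2]
    obtain ⟨z, hz, hzQ⟩ := hQ.exists_conj_le hH hHM
    rwa [cj_eq_of_mem_normalizer hz.2] at hzQ
  -- the sum over `g`
  have e4 : ∑ T : Subgroup G, (if H < T ∧ T ≤ N ∧ IsPGroup p ↥T then w T * sN N T else 0) =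
      ∑ g : G, (if (g ∈ N ∧ Snz H g) ∧ g ∉ M then (1 : ℤ) else 0) +
      ∑ T : Subgroup G, (if H < T ∧ T ≤ N ∧ IsPGroup p ↥T then w T * sN M T else 0) := by
    have h1 : ∀ (N' T : Subgroup G), (if H < T ∧ T ≤ N ∧ IsPGroup p ↥T then w T * sN N' T else 0) =
        ∑ g : G, (if (H < T ∧ T ≤ N ∧ IsPGroup p ↥T) ∧ (g ∈ N' ∧ Snz T g) then w T else 0) := by
      intro N' T
      by_cases h : H < T ∧ T ≤ N ∧ IsPGroup p ↥T
      · rw [if_pos h, sN, Finset.mul_sum]
        apply Finset.sum_congr rfl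
        intro g _
        by_cases h' : g ∈ N' ∧ Snz T g
        · rw [if_pos h', if_pos ⟨h, h'⟩, mul_one]
        · rw [if_neg h', if_neg (fun h'' => h' h''.2), mul_zero]
      · rw [if_neg h]
        symm
        apply Finset.sum_eq_zero
        intro g _
        rw [if_neg (fun h'' => h h''.1)]
    have s1 : ∀ N' : Subgroup G, ∑ T : Subgroup G, (if H < T ∧ T ≤ N ∧ IsPGroup p ↥T then w T * sN N' T else 0) =
        ∑ g : G, ∑ T : Subgroup G, (if (H < T ∧ T ≤ N ∧ IsPGroup p ↥T) ∧ (g ∈ N' ∧ Snz T g) then w T else 0) := by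
      intro N'
      rw [Finset.sum_congr rfl (fun T _ => h1 N' T)]
      exact Finset.sum_comm
    rw [s1 N, s1 M, ← Finset.sum_add_distrib]
    apply Finset.sum_congr rfl
    intro g _
    by_cases hgN : g ∈ N
    · by_cases hgM : g ∈ M
      · rw [if_neg (fun h => h.2 hgM), zero_add]
        apply Finset.sum_congr rfl
        intro T _
        refine if_congr ?_ rfl rfl
        simp only [hgN, hgM]
      · have hz : ∑ T : Subgroup G, (if (H < T ∧ T ≤ N ∧ IsPGroup p ↥T) ∧ (g ∈ M ∧ Snz T g) then w T else 0) = 0 := by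
          apply Finset.sum_eq_zero
          intro T _
          rw [if_neg (fun h => hgM h.2.1)]
        rw [hz, add_zero]
        by_cases hs : Snz H g
        · rw [if_pos ⟨⟨hgN, hs⟩, hgM⟩]
          obtain ⟨R₀, hR₀, hHR₀, hgR₀⟩ := (snz_iff hH g).mp hs
          -- the smallest `g`-invariant subgroup containing `H`
          set m : Subgroup G := ⨆ i : ℤ, cj (g ^ i) H with hm
          have hmle : ∀ R : Subgroup G, H ≤ R → g ∈ normalizer (R : Set G) → m ≤ R := by
            intro R hHR hgR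
            refine iSup_le fun i => ?_
            have : cj (g ^ i) R = R := cj_eq_of_mem_normalizer (zpow_mem hgR i)
            calc cj (g ^ i) H ≤ cj (g ^ i) R := cj_mono hHR
              _ = R := this
          have hgm : g ∈ normalizer (m : Set G) := by
            have hcm : ∀ x : G, (∀ i : ℤ, ∃ j : ℤ, x * g ^ i = g ^ j) → cj x m ≤ m := by
              intro x hx
              rw [hm]
              change (⨆ i : ℤ, cj (g ^ i) H).map (MulAut.conj x).toMonoidHom ≤ _
              rw [Subgroup.map_iSup]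
              refine iSup_le fun i => ?_
              obtain ⟨j, hj⟩ := hx i
              have : (cj (g ^ i) H).map (MulAut.conj x).toMonoidHom = cj (g ^ j) H := by
                have := cj_mul x (g ^ i) H
                rw [hj] at this
                exact this.symm
              rw [this]
              exact le_iSup (fun j : ℤ => cj (g ^ j) H) j
            rw [mem_normalizer_iff_cj]
            apply le_antisymm
            · exact hcm g (fun i => ⟨i + 1, by rw [zpow_add, zpow_one, (Commute.zpow_self g i).eq]⟩)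
            · have h2 := cj_mono (g := g) (hcm g⁻¹ (fun i => ⟨-1 + i, by
                rw [zpow_add, zpow_neg_one]⟩))
              rwa [cj_cj_inv] at h2
          have hHm : H ≤ m := by
            have := le_iSup (fun j : ℤ => cj (g ^ j) H) 0
            rw [zpow_zero, cj_one] at this
            exact this
          have hmp : IsPGroup p ↥m := hR₀.to_le (hmle R₀ hHR₀ hgR₀)
          have hmN : m ≤ N := hmle N hHN (le_normalizer hgN)
          have hHltm : H < m := by
            refine lt_of_le_of_ne hHm ?_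
            intro he
            apply hgM
            refine ⟨hgN, ?_⟩
            rw [he]; exact hgm
          refine (Finset.sum_congr rfl (fun T _ => ?_)).trans
            (fam hw hHltm (A := fun T => (H < T ∧ T ≤ N ∧ IsPGroup p ↥T) ∧ (g ∈ N ∧ Snz T g)) ?_ ?_ ?_ ?_)
          · by_cases h : (H < T ∧ T ≤ N ∧ IsPGroup p ↥T) ∧ g ∈ N ∧ Snz T g
            · rw [if_pos h, if_pos h]
            · rw [if_neg h, if_neg h]
          · intro X hX; exact hX.1.1
          · rintro X Y hHX hXY ⟨⟨h2, h3, h4⟩, h5, h6⟩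
            refine ⟨⟨hHX, hXY.trans h3, h4.to_le hXY⟩, h5, ?_⟩
            obtain ⟨R, hR, hYR, hgR⟩ := (snz_iff h4 g).mp h6
            exact (snz_iff (h4.to_le hXY) g).mpr ⟨R, hR, hXY.trans hYR, hgR⟩
          · exact ⟨⟨hHltm, hmN, hmp⟩, hgN, snz_of_norm hmp hgm⟩
          · rintro X ⟨⟨h2, h3, h4⟩, h5, h6⟩
            obtain ⟨R, hR, hXR, hgR⟩ := (snz_iff h4 g).mp h6
            have hmR : m ≤ R := hmle R (h2.le.trans hXR) hgR
            have hpX : IsPGroup p ↥(X ⊔ m : Subgroup G) := hR.to_le (sup_le hXR hmR)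
            exact ⟨⟨h2.trans_le le_sup_left, sup_le h3 hmN, hpX⟩, h5,
              (snz_iff hpX g).mpr ⟨R, hR, sup_le hXR hmR, hgR⟩⟩
        · rw [if_neg (fun h => hs h.1.2)]
          apply Finset.sum_eq_zero
          intro T _
          rw [if_neg]
          rintro ⟨⟨h2, h3, h4⟩, h5, h6⟩
          apply hs
          obtain ⟨R, hR, hXR, hgR⟩ := (snz_iff h4 g).mp h6
          exact (snz_iff hH g).mpr ⟨R, hR, h2.le.trans hXR, hgR⟩
    · rw [if_neg (fun h => hgN h.1.1), zero_add]
      apply Finset.sum_congr rfl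
      intro T _
      refine if_congr ?_ rfl rfl
      have : g ∉ M := fun h => hgN h.1
      simp only [hgN, this]
  -- conclusion
  have e5 : sN N H = ∑ g : G, (if (g ∈ N ∧ Snz H g) ∧ g ∉ M then (1 : ℤ) else 0) +
      ∑ g : G, (if g ∈ M then (1 : ℤ) else 0) := by
    rw [sN, ← Finset.sum_add_distrib]
    apply Finset.sum_congr rfl
    intro g _
    by_cases hgM : g ∈ M
    · rw [if_pos hgM, if_neg (show ¬ ((g ∈ N ∧ Snz H g) ∧ g ∉ M) from fun h => h.2 hgM), zero_add,
        if_pos ⟨hgM.1, snz_of_norm hH hgM.2⟩]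
    · rw [if_neg hgM, add_zero]
      refine if_congr ?_ rfl rfl
      exact ⟨fun h => ⟨h, hgM⟩, fun h => h.1⟩
  rw [e5, ← e3, ← e2, ← e4, e1]

end grp

section final
variable {G : Type*} [Group G]

theorem card_fib {Ω : Type*} [Finite G] (f : G → Ω) (S : Subgroup G) (hf : ∀ g h, f g = f h ↔ g⁻¹ * h ∈ S)
    (φ : Ω → Prop) : Nat.card {g : G // φ (f g)} = Nat.card {b : Ω // φ b ∧ ∃ g, f g = b} * Nat.card S := by
  classical
  rw [← Nat.card_prod]
  let r : {b : Ω // φ b ∧ ∃ g, f g = b} → G := fun b => Classical.choose b.2.2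
  have hr : ∀ b : {b : Ω // φ b ∧ ∃ g, f g = b}, f (r b) = b := fun b => Classical.choose_spec b.2.2
  refine Nat.card_congr
    { toFun := fun g => (⟨f g, g.2, g, rfl⟩, ⟨(r ⟨f g, g.2, g, rfl⟩)⁻¹ * g, (hf _ _).mp (hr ⟨f g, g.2, g, rfl⟩)⟩)
      invFun := fun bs => ⟨r bs.1 * bs.2, ?_⟩
      left_inv := ?_
      right_inv := ?_ }
  · have : f (r bs.1 * bs.2) = f (r bs.1) := by
      rw [hf]
      have : (r bs.1 * (bs.2 : G))⁻¹ * r bs.1 = (bs.2 : G)⁻¹ := by group
      rw [this]; exact inv_mem bs.2.2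
    rw [this, hr]; exact bs.1.2.1
  · intro g
    apply Subtype.ext
    change r _ * ((r _)⁻¹ * (g : G)) = g
    group
  · rintro ⟨b, s⟩
    have h1 : f (r b * s) = b := by
      rw [← hr b, hf]
      have : (r b * (s : G))⁻¹ * r b = (s : G)⁻¹ := by group
      rw [this]; exact inv_mem s.2
    have h2 : (⟨f (r b * s), by rw [h1]; exact b.2.1, r b * s, rfl⟩ : {b : Ω // φ b ∧ ∃ g, f g = b}) = b :=
      Subtype.ext h1
    refine Prod.ext h2 (Subtype.ext ?_)
    change (r ⟨f (r b * s), _⟩)⁻¹ * (r b * (s : G)) = s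
    rw [h2]; group

variable {p : ℕ} [hp : Fact p.Prime] [Finite G]

theorem card_conj {H P : Subgroup G} : Nat.card {g : G // cj g H ≤ P} =
    Nat.card {K : Subgroup G // K ≤ P ∧ ∃ g : G, K = H.map (MulAut.conj g).toMonoidHom} *
      Nat.card (normalizer (H : Set G)) := by
  have h1 := card_fib (fun g : G => cj g H) (normalizer (H : Set G)) (by
    intro g h
    rw [mem_normalizer_iff_cj, cj_mul]
    change cj g _ = cj h _ ↔ _
    rw [cj_eq_iff]
    exact eq_comm) (fun K => K ≤ P)
  rw [h1]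
  congr 1
  apply Nat.card_congr
  apply Equiv.subtypeEquivRight
  intro K
  constructor
  · rintro ⟨h2, g, h3⟩; exact ⟨h2, g, h3.symm⟩
  · rintro ⟨h2, g, h3⟩; exact ⟨h2, g, h3.symm⟩

theorem card_syl {H : Subgroup G} (P : Sylow p G) : Nat.card {g : G // cj g H ≤ (P : Subgroup G)} =
    Nat.card {Q : Sylow p G // H ≤ (Q : Subgroup G)} * Nat.card (normalizer ((P : Subgroup G) : Set G)) := by
  have h1 := card_fib (fun g : G => cj g (P : Subgroup G)) (normalizer ((P : Subgroup G) : Set G)) (by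
    intro g h
    rw [mem_normalizer_iff_cj, cj_mul]
    change cj g _ = cj h _ ↔ _
    rw [cj_eq_iff]
    exact eq_comm) (fun K => H ≤ K)
  have h2 : Nat.card {g : G // cj g H ≤ (P : Subgroup G)} = Nat.card {g : G // H ≤ cj g (P : Subgroup G)} := by
    apply Nat.card_congr
    refine (Equiv.inv G).subtypeEquiv ?_
    intro g
    exact cj_le_iff
  rw [h2, h1]
  congr 1
  apply Nat.card_congr
  refine
    { toFun := fun K => ⟨⟨K.1, ?_, ?_⟩, K.2.1⟩
      invFun := fun Q => ⟨Q.1, Q.2, ?_⟩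
      left_inv := fun K => rfl
      right_inv := fun Q => rfl }
  · obtain ⟨K, hK, g, rfl⟩ := K
    exact isPGroup_cj P.isPGroup'
  · obtain ⟨K, hK, g, rfl⟩ := K
    intro R hR hle
    have h3 : (P : Subgroup G) ≤ cj g⁻¹ R := cj_le_iff.mp hle
    have h4 := P.is_maximal' (isPGroup_cj hR) h3
    change R = cj g (P : Subgroup G)
    have h5 : cj g⁻¹ R = (P : Subgroup G) := h4
    rw [← h5, cj_cj_inv]
  · obtain ⟨y, -, hy⟩ := (isSylIn_sylow_top Q.1).exists_conj_eq (isSylIn_sylow_top P)
    exact ⟨y, hy⟩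

theorem card_snz {H : Subgroup G} (hH : IsPGroup p ↥H) (P : Sylow p G) :
    Nat.card {g : G // Snz H g} = Nat.card {g : G // cj g H ≤ (P : Subgroup G)} := by
  classical
  letI := Fintype.ofFinite G
  letI := Fintype.ofFinite (Subgroup G)
  have h1 := count (p := p) _ (⊤ : Subgroup G) (P : Subgroup G) H rfl le_top hH (isSylIn_sylow_top P)
  have h2 : sN (⊤ : Subgroup G) H = (Nat.card {g : G // Snz H g} : ℤ) := by
    rw [sN, Nat.card_eq_fintype_card, Fintype.card_subtype, Finset.card_eq_sum_ones, Finset.sum_filter]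
    push_cast
    apply Finset.sum_congr rfl
    intro g _
    by_cases h : Snz H g
    · rw [if_pos ⟨mem_top g, h⟩, if_pos h]
    · rw [if_neg (fun h' => h h'.2), if_neg h]
  have h3 : fN (⊤ : Subgroup G) (P : Subgroup G) H = (Nat.card {g : G // cj g H ≤ (P : Subgroup G)} : ℤ) := by
    rw [fN, Nat.card_eq_fintype_card, Fintype.card_subtype, Finset.card_eq_sum_ones, Finset.sum_filter]
    push_cast
    apply Finset.sum_congr rfl
    intro g _
    by_cases h : cj g H ≤ (P : Subgroup G)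
    · rw [if_pos ⟨mem_top g, h⟩, if_pos h]
    · rw [if_neg (fun h' => h h'.2), if_neg h]
  rw [h2, h3] at h1
  exact_mod_cast h1

end final

end Cfsg.Agent.H18.SN
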