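import Mathlib
import Cfsg.Agent.H18_SN2
import Cfsg.Agent.H18_NF3

/-!
# Subnormalizers of `p`-subgroups of `p`-soluble groups
-/

set_option autoImplicit false
set_option linter.unusedSectionVars false
set_option linter.unusedSimpArgs false
set_option linter.style.haveILetI false

namespace Cfsg.Agent.H18.SN

open Subgroup Pointwise
open scoped commutatorElement
open Cfsg.Agent.H13.Syl
open Cfsg.Agent.H18.CharP
open Cfsg.Agent.H18.KS (commutator_le_left_of mem_sup_of_norm le_normalizer_iff_conj)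

theorem tele {n : ℕ} (F : Fin (n + 1) → ℕ) (a b : Fin n → ℕ) (hF : ∀ i, 0 < F i)
    (h : ∀ i : Fin n, F i.castSucc * a i = F i.succ * b i) : F 0 * ∏ i, a i = F (Fin.last n) * ∏ i, b i := by
  have h1 : (∏ i : Fin n, F i.castSucc) * ∏ i, a i = (∏ i : Fin n, F i.succ) * ∏ i, b i := by
    rw [← Finset.prod_mul_distrib, ← Finset.prod_mul_distrib]
    exact Finset.prod_congr rfl (fun i _ => h i)
  have h2 : F 0 * ∏ i : Fin n, F i.succ = (∏ i : Fin n, F i.castSucc) * F (Fin.last n) := by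
    rw [← Fin.prod_univ_succ, ← Fin.prod_univ_castSucc]
  have h3 : 0 < ∏ i : Fin n, F i.succ := Finset.prod_pos (fun i _ => hF _)
  apply Nat.eq_of_mul_eq_mul_left h3
  calc (∏ i : Fin n, F i.succ) * (F 0 * ∏ i, a i) = (F 0 * ∏ i : Fin n, F i.succ) * ∏ i, a i := by ring
    _ = (∏ i : Fin n, F i.castSucc) * F (Fin.last n) * ∏ i, a i := by rw [h2]
    _ = F (Fin.last n) * ((∏ i : Fin n, F i.castSucc) * ∏ i, a i) := by ring
    _ = F (Fin.last n) * ((∏ i : Fin n, F i.succ) * ∏ i, b i) := by rw [h1]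
    _ = (∏ i : Fin n, F i.succ) * (F (Fin.last n) * ∏ i, b i) := by ring

section grp
variable {G : Type*} [Group G] [Finite G] {p : ℕ} [hp : Fact p.Prime]

/-- elements of `L` centralizing `H` modulo `K` -/
def cmod (H K L : Subgroup G) [hK : K.Normal] : Subgroup G where
  carrier := {u | u ∈ L ∧ ∀ h ∈ H, h * u * h⁻¹ * u⁻¹ ∈ K}
  mul_mem' := by
    rintro u v ⟨hu, hu'⟩ ⟨hv, hv'⟩
    refine ⟨L.mul_mem hu hv, fun h hh => ?_⟩
    have e1 : h * (u * v) * h⁻¹ * (u * v)⁻¹ = (h * u * h⁻¹ * u⁻¹) * (u * (h * v * h⁻¹ * v⁻¹) * u⁻¹) := by group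
    rw [e1]
    exact K.mul_mem (hu' h hh) (hK.conj_mem _ (hv' h hh) u)
  one_mem' := ⟨L.one_mem, fun h _ => by
    have : h * 1 * h⁻¹ * (1 : G)⁻¹ = 1 := by group
    rw [this]; exact K.one_mem⟩
  inv_mem' := by
    rintro u ⟨hu, hu'⟩
    refine ⟨L.inv_mem hu, fun h hh => ?_⟩
    have e3 : h * u⁻¹ * h⁻¹ * u⁻¹⁻¹ = u⁻¹ * (u * (h * u⁻¹ * h⁻¹)) * u⁻¹⁻¹ := by group
    have e4 : u * (h * u⁻¹ * h⁻¹) = (h * u * h⁻¹ * u⁻¹)⁻¹ := by group
    rw [e3, e4]
    exact hK.conj_mem _ (K.inv_mem (hu' h hh)) u⁻¹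

theorem le_cmod {H K L : Subgroup G} [hK : K.Normal] (hKL : K ≤ L) : K ≤ cmod H K L := by
  intro u hu
  refine ⟨hKL hu, fun h _ => ?_⟩
  exact K.mul_mem (hK.conj_mem _ hu h) (K.inv_mem hu)

theorem sup_inf_eq {P K L : Subgroup G} [hK : K.Normal] [hL : L.Normal] (hKL : K ≤ L) (hP : IsPGroup p ↥P)
    (hc : (K.relIndex L).Coprime p) : (P ⊔ K) ⊓ L = K := by
  apply le_antisymm
  · rintro x ⟨hx, hxL⟩
    rw [sup_comm] at hx
    obtain ⟨k, hk, q, hq, rfl⟩ := mem_sup_of_norm (by rw [normalizer_eq_top]; exact le_top) hx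
    have hqL : q ∈ L := by
      have : q = k⁻¹ * (k * q) := by group
      rw [this]; exact mul_mem (inv_mem (hKL hk)) hxL
    have h1 : q ^ (K.relIndex L) ∈ K := by
      have hn : (K.subgroupOf L).Normal := inferInstance
      have h2 := (K.subgroupOf L).pow_index_mem (⟨q, hqL⟩ : ↥L)
      exact h2
    obtain ⟨n, hn⟩ := hP ⟨q, hq⟩
    have hn' : q ^ p ^ n = 1 := by simpa using congrArg Subtype.val hn
    have h3 : (orderOf q).Coprime (K.relIndex L) :=
      Nat.Coprime.coprime_dvd_left (orderOf_dvd_of_pow_eq_one hn') (Nat.Coprime.pow_left n hc.symm)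
    have h4 : q ∈ zpowers (q ^ (K.relIndex L)) := by
      obtain ⟨m, hm⟩ := exists_pow_eq_self_of_coprime (Nat.Coprime.symm h3)
      rw [mem_zpowers_iff]
      exact ⟨m, by exact_mod_cast hm⟩
    have h5 : q ∈ K := (zpowers_le.mpr h1) h4
    exact mul_mem hk h5
  · exact le_inf le_sup_right hKL

theorem card_sup {P K L : Subgroup G} [hK : K.Normal] [hL : L.Normal] (hKL : K ≤ L) (hP : IsPGroup p ↥P)
    (hc : (K.relIndex L).Coprime p) :
    Nat.card ↥(P ⊔ L : Subgroup G) = Nat.card ↥(P ⊔ K : Subgroup G) * K.relIndex L := by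
  have h1 := H1.Basic.card_sup_mul_card_inf (H := P ⊔ K) (K := L) (by rw [normalizer_eq_top]; exact le_top)
  rw [sup_inf_eq hKL hP hc] at h1
  have h2 : P ⊔ K ⊔ L = P ⊔ L := by
    rw [sup_assoc, sup_eq_right.mpr hKL]
  rw [h2] at h1
  have h3 := H1.Basic.relIndex_mul_card hKL
  have h4 : 0 < Nat.card K := Nat.card_pos
  apply Nat.eq_of_mul_eq_mul_right h4
  rw [h1, ← h3]; ring

open Classical in
theorem count_step {H K L : Subgroup G} [hK : K.Normal] [hL : L.Normal] (P : Sylow p G) (hH : IsPGroup p ↥H)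
    (hKL : K ≤ L) (hc : (K.relIndex L).Coprime p) :
    Nat.card {g : G // cj g H ≤ (P : Subgroup G) ⊔ K} * Nat.card L =
      Nat.card {g : G // cj g H ≤ (P : Subgroup G) ⊔ L} * Nat.card (cmod H K L) := by
  letI := Fintype.ofFinite G
  have hcard : ∀ φ : G → Prop, Nat.card {g : G // φ g} = ∑ g : G, (if φ g then 1 else 0) := by
    intro φ
    rw [Nat.card_eq_fintype_card, Fintype.card_subtype, Finset.card_eq_sum_ones, Finset.sum_filter]
  have hcardS : ∀ S : Subgroup G, Nat.card S = ∑ g : G, (if g ∈ S then 1 else 0) := fun S => hcard (fun g => g ∈ S)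
  have hPKL : (P : Subgroup G) ⊔ K ≤ (P : Subgroup G) ⊔ L := sup_le_sup_left hKL _
  have hXL : ∀ l ∈ L, ∀ g : G, cj (l * g) H ≤ (P : Subgroup G) ⊔ L → cj g H ≤ (P : Subgroup G) ⊔ L := by
    intro l hl g h
    rw [cj_mul, cj_le_iff] at h
    refine h.trans (le_of_eq ?_)
    exact cj_eq_of_mem ((le_sup_right : L ≤ _) (inv_mem hl))
  set S := ∑ l : G, ∑ g : G, (if l ∈ L ∧ cj g H ≤ (P : Subgroup G) ⊔ L ∧ cj (l * g) H ≤ (P : Subgroup G) ⊔ K then 1 else 0)
    with hS
  have h1 : S = Nat.card {g : G // cj g H ≤ (P : Subgroup G) ⊔ K} * Nat.card L := by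
    rw [hS, hcardS L, Finset.mul_sum]
    apply Finset.sum_congr rfl
    intro l _
    by_cases hl : l ∈ L
    · rw [if_pos hl, mul_one, hcard,
        ← Equiv.sum_comp (Equiv.mulLeft l) (fun g => if cj g H ≤ (P : Subgroup G) ⊔ K then 1 else 0)]
      apply Finset.sum_congr rfl
      intro g _
      refine if_congr ?_ rfl rfl
      change _ ↔ cj (l * g) H ≤ _
      exact ⟨fun h => h.2.2, fun h => ⟨hl, hXL l hl g (h.trans hPKL), h⟩⟩
    · rw [if_neg hl, mul_zero]
      apply Finset.sum_eq_zero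
      intro g _
      rw [if_neg (fun h => hl h.1)]
  have h2 : S = Nat.card {g : G // cj g H ≤ (P : Subgroup G) ⊔ L} * Nat.card (cmod H K L) := by
    rw [hS, Finset.sum_comm, hcard (fun g => cj g H ≤ (P : Subgroup G) ⊔ L), Finset.sum_mul]
    apply Finset.sum_congr rfl
    intro g _
    by_cases hg : cj g H ≤ (P : Subgroup G) ⊔ L
    · rw [if_pos hg, one_mul, hcardS]
      -- choose `l₀`
      have hPin : IsSylIn p (P : Subgroup G) ((P : Subgroup G) ⊔ L) :=
        (isSylIn_sylow_top P).mono le_sup_left le_top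
      obtain ⟨y, hy, hyP⟩ := hPin.exists_conj_le (isPGroup_cj hH) hg
      obtain ⟨q, hq, l₀, hl₀, rfl⟩ : ∃ q ∈ (P : Subgroup G), ∃ l₀ ∈ L, y = q * l₀ := by
        rw [← SetLike.mem_coe, mul_normal] at hy
        obtain ⟨q, hq, l₀, hl₀, rfl⟩ := hy
        exact ⟨q, hq, l₀, hl₀, rfl⟩
      have hx : cj (l₀ * g) H ≤ (P : Subgroup G) ⊔ K := by
        rw [cj_mul] at hyP ⊢
        rw [cj_le_iff] at hyP
        rw [cj_eq_of_mem (inv_mem hq)] at hyP
        exact hyP.trans le_sup_left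
      rw [← Equiv.sum_comp ((MulAut.conj g).toEquiv.trans (Equiv.mulLeft l₀))
        (fun l => if l ∈ L ∧ cj g H ≤ (P : Subgroup G) ⊔ L ∧ cj (l * g) H ≤ (P : Subgroup G) ⊔ K then 1 else 0)]
      apply Finset.sum_congr rfl
      intro u _
      refine if_congr ?_ rfl rfl
      change (l₀ * (g * u * g⁻¹) ∈ L ∧ _ ∧ cj (l₀ * (g * u * g⁻¹) * g) H ≤ (P : Subgroup G) ⊔ K) ↔ _
      have e1 : l₀ * (g * u * g⁻¹) * g = (l₀ * g) * u := by group
      rw [e1, L.mul_mem_cancel_left hl₀]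
      have huL : g * u * g⁻¹ ∈ L ↔ u ∈ L := by
        constructor
        · intro h
          have := hL.conj_mem _ h g⁻¹
          have e2 : g⁻¹ * (g * u * g⁻¹) * g⁻¹⁻¹ = u := by group
          rwa [e2] at this
        · intro h; exact hL.conj_mem _ h g
      rw [huL]
      have key : u ∈ L → (cj (l₀ * g * u) H ≤ (P : Subgroup G) ⊔ K ↔ ∀ h ∈ H, h * u * h⁻¹ * u⁻¹ ∈ K) := by
        intro hu
        set x := l₀ * g with hxdef
        rw [cj_le_iff_forall] at hx ⊢
        constructor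
        · intro h1 h hh
          have h2 : x * u * h * (x * u)⁻¹ * (x * h * x⁻¹)⁻¹ ∈ (P : Subgroup G) ⊔ K :=
            mul_mem (h1 h hh) (inv_mem (hx h hh))
          have e3 : x * u * h * (x * u)⁻¹ * (x * h * x⁻¹)⁻¹ = x * (u * (h * u⁻¹ * h⁻¹)) * x⁻¹ := by group
          have h3 : x * (u * (h * u⁻¹ * h⁻¹)) * x⁻¹ ∈ L :=
            hL.conj_mem _ (mul_mem hu (hL.conj_mem _ (inv_mem hu) h)) x
          rw [e3] at h2
          have h4 : x * (u * (h * u⁻¹ * h⁻¹)) * x⁻¹ ∈ K := by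
            rw [← sup_inf_eq hKL P.isPGroup' hc]; exact ⟨h2, h3⟩
          have h5 := hK.conj_mem _ (inv_mem h4) x⁻¹
          have e4 : x⁻¹ * (x * (u * (h * u⁻¹ * h⁻¹)) * x⁻¹)⁻¹ * x⁻¹⁻¹ = h * u * h⁻¹ * u⁻¹ := by group
          rwa [e4] at h5
        · intro h1 h hh
          have h5 : x * (h * u * h⁻¹ * u⁻¹)⁻¹ * x⁻¹ ∈ (P : Subgroup G) ⊔ K :=
            (le_sup_right : K ≤ _) (hK.conj_mem _ (inv_mem (h1 h hh)) x)
          have e3 : x * u * h * (x * u)⁻¹ = (x * (h * u * h⁻¹ * u⁻¹)⁻¹ * x⁻¹) * (x * h * x⁻¹) := by group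
          rw [e3]
          exact mul_mem h5 (hx h hh)
      constructor
      · rintro ⟨h1, -, h3⟩
        exact ⟨h1, (key h1).mp h3⟩
      · rintro ⟨h1, h2⟩
        exact ⟨h1, hg, (key h1).mpr h2⟩
    · rw [if_neg hg, zero_mul]
      apply Finset.sum_eq_zero
      intro l _
      rw [if_neg (fun h => hg h.2.1)]
  rw [← h1, h2]

theorem sup_eq_of_fac {K L : Subgroup G} [hL : L.Normal] (P : Sylow p G) (hKL : K ≤ L) (hk : ∃ m, K.relIndex L = p ^ m) :
    (P : Subgroup G) ⊔ L = (P : Subgroup G) ⊔ K := by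
  have h1 : IsSylIn p ((P : Subgroup G) ⊓ L) L :=
    (isSylIn_sylow_top P).inf_of_le_normalizer le_top (by rw [normalizer_eq_top])
  have h2 := H18.NF.sup_eq_of_pow hKL h1 hk
  apply le_antisymm
  · refine sup_le le_sup_left ?_
    rw [← h2]
    exact sup_le le_sup_right (inf_le_left.trans le_sup_left)
  · exact sup_le_sup_left hKL _

theorem final_count {H : Subgroup G} (hH : IsPGroup p ↥H) (P : Sylow p G)
    {n : ℕ} (M : Fin (n + 1) → Subgroup G) (h0 : M 0 = ⊥) (hn : M (Fin.last n) = ⊤) (hmono : Monotone M)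
    (hnormal : ∀ i, (M i).Normal)
    (hfac : ∀ i : Fin n, (∃ m : ℕ, (M i.castSucc).relIndex (M i.succ) = p ^ m) ∨ ((M i.castSucc).relIndex (M i.succ)).Coprime p) :
    Nat.card {g : G // Snz H g} =
      Nat.card (P : Subgroup G) *
        ∏ i : Fin n, (if ((M i.castSucc).relIndex (M i.succ)).Coprime p then
          Nat.card {u : G // u ∈ M i.succ ∧ ∀ h ∈ H, h * u * h⁻¹ * u⁻¹ ∈ M i.castSucc} / Nat.card (M i.castSucc)
          else 1) := by
  classical
  rw [card_snz hH P]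
  set b : Fin n → ℕ := fun i => (if ((M i.castSucc).relIndex (M i.succ)).Coprime p then
          Nat.card {u : G // u ∈ M i.succ ∧ ∀ h ∈ H, h * u * h⁻¹ * u⁻¹ ∈ M i.castSucc} / Nat.card (M i.castSucc)
          else 1) with hb
  set a : Fin n → ℕ := fun i => (if ((M i.castSucc).relIndex (M i.succ)).Coprime p then (M i.castSucc).relIndex (M i.succ)
    else 1) with ha
  have hle : ∀ i : Fin n, M i.castSucc ≤ M i.succ := fun i => hmono (Fin.castSucc_lt_succ).le
  obtain ⟨y, -, hyP⟩ := (isSylIn_sylow_top P).exists_conj_le hH le_top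
  have t1 := tele (fun i => Nat.card {g : G // cj g H ≤ (P : Subgroup G) ⊔ M i}) a b (by
    intro i
    have : Nonempty {g : G // cj g H ≤ (P : Subgroup G) ⊔ M i} := ⟨⟨y, hyP.trans le_sup_left⟩⟩
    exact Nat.card_pos) (by
    intro i
    have i1 := hnormal i.castSucc
    have i2 := hnormal i.succ
    by_cases hc : ((M i.castSucc).relIndex (M i.succ)).Coprime p
    · have h1 := count_step (H := H) (K := M i.castSucc) (L := M i.succ) P hH (hle i) hc
      have h2 := H1.Basic.relIndex_mul_card (hle i)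
      have h3 : Nat.card (cmod H (M i.castSucc) (M i.succ)) =
          Nat.card {u : G // u ∈ M i.succ ∧ ∀ h ∈ H, h * u * h⁻¹ * u⁻¹ ∈ M i.castSucc} := rfl
      have h4 : Nat.card (M i.castSucc) ∣ Nat.card (cmod H (M i.castSucc) (M i.succ)) :=
        Subgroup.card_dvd_of_le (le_cmod (hle i))
      have h5 := Nat.div_mul_cancel h4
      simp only [ha, hb, if_pos hc]
      rw [← h3]
      have h6 : 0 < Nat.card (M i.castSucc) := Nat.card_pos
      apply Nat.eq_of_mul_eq_mul_right h6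
      rw [mul_assoc, h2, h1, mul_assoc, h5]
    · have hk := (hfac i).resolve_right hc
      simp only [ha, hb, if_neg hc, mul_one]
      rw [sup_eq_of_fac P (hle i) hk])
  have t2 := tele (fun i => Nat.card ↥((P : Subgroup G) ⊔ M i : Subgroup G)) a (fun _ => 1) (fun i => Nat.card_pos) (by
    intro i
    have i1 := hnormal i.castSucc
    have i2 := hnormal i.succ
    by_cases hc : ((M i.castSucc).relIndex (M i.succ)).Coprime p
    · simp only [ha, if_pos hc, mul_one]
      rw [card_sup (hle i) P.isPGroup' hc]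
    · have hk := (hfac i).resolve_right hc
      simp only [ha, if_neg hc, mul_one]
      rw [sup_eq_of_fac P (hle i) hk])
  have hapos : 0 < ∏ i, a i := by
    apply Finset.prod_pos
    intro i _
    simp only [ha]
    split_ifs
    · exact Nat.pos_of_ne_zero index_ne_zero_of_finite
    · exact one_pos
  have e1 : Nat.card {g : G // cj g H ≤ (P : Subgroup G) ⊔ M 0} = Nat.card {g : G // cj g H ≤ (P : Subgroup G)} := by
    rw [h0, sup_bot_eq]
  have e2 : Nat.card {g : G // cj g H ≤ (P : Subgroup G) ⊔ M (Fin.last n)} = Nat.card G := by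
    rw [hn, sup_top_eq]
    exact Nat.card_congr (Equiv.subtypeUnivEquiv (fun g => le_top))
  have e3 : Nat.card ↥((P : Subgroup G) ⊔ M 0 : Subgroup G) = Nat.card (P : Subgroup G) := by rw [h0, sup_bot_eq]
  have e4 : Nat.card ↥((P : Subgroup G) ⊔ M (Fin.last n) : Subgroup G) = Nat.card G := by
    rw [hn, sup_top_eq, Subgroup.card_top]
  simp only [e1, e2] at t1
  simp only [e3, e4, Finset.prod_const_one, mul_one] at t2
  rw [← t2] at t1
  apply Nat.eq_of_mul_eq_mul_right hapos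
  rw [t1]; ring

end grp

end Cfsg.Agent.H18.SN
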