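import Mathlib
import Cfsg.Prelude.Def_SylowChains
import Cfsg.Agent.H18_Syl3

set_option autoImplicit false

/-!
Functor families, regular subgroups: transfer of chains of Sylow subgroups.
-/

namespace Cfsg.Agent.H18.Syl4

open scoped Pointwise
open Cfsg Cfsg.Agent.H18.Syl Cfsg.Agent.H18.Syl2 Cfsg.Agent.H18.Syl3

section
variable {G : Type*} [Group G] [Finite G] {p : ℕ} [Fact p.Prime]

/-- a Sylow subgroup of `G` inside `M` as a Sylow subgroup of `M` -/
theorem card_sub (M : Subgroup G) (S : Sylow p G) (hS : (S : Subgroup G) ≤ M) :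
    vp p M = (Nat.card G).factorization p := by
  have h1 : Nat.card ↥(S : Subgroup G) = p ^ (Nat.card G).factorization p := S.card_eq_multiplicity
  have h2 := card_sylow_sub (S.subtype hS)
  have h3 : ((S.subtype hS : Sylow p ↥M) : Subgroup ↥M).map M.subtype = S := by
    show ((S : Subgroup G).subgroupOf M).map M.subtype = S
    rw [Subgroup.subgroupOf_map_subtype, inf_eq_left.mpr hS]
  rw [h3, h1] at h2
  exact (Nat.pow_right_injective (Fact.out (p := p.Prime)).two_le h2).symm

/-- the Sylow subgroup of `G` obtained from a Sylow subgroup of an overgroup `M` of a Sylow subgroup. -/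
theorem exists_up (M : Subgroup G) (S : Sylow p G) (hS : (S : Subgroup G) ≤ M) (P : Sylow p ↥M) :
    ∃ U : Sylow p G, (U : Subgroup G) = (P : Subgroup ↥M).map M.subtype := by
  refine ⟨Sylow.ofCard ((P : Subgroup ↥M).map M.subtype) ?_, rfl⟩
  rw [card_sylow_sub, card_sub M S hS]

/-- the family attached to `⊤` -/
theorem mem_functorFamily_top (f : Subgroup G → Set (Subgroup G)) (U : Sylow p G) (F : Subgroup G) (hF : F ∈ f U) :
    Subgroup.normalizer (F : Set G) ∈ functorFamily p f ⊤ := by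
  refine ⟨U.subtype le_top, F, ?_, by simp⟩
  have : ((U.subtype le_top : Sylow p ↥(⊤ : Subgroup G)) : Subgroup ↥(⊤ : Subgroup G)).map (⊤ : Subgroup G).subtype = U := by
    show ((U : Subgroup G).subgroupOf ⊤).map (⊤ : Subgroup G).subtype = U
    rw [Subgroup.subgroupOf_map_subtype, inf_top_eq]
  rwa [this]

/-- link in a regular overgroup of a Sylow subgroup gives a link in `G`. -/
theorem link_of_regular (f : Subgroup G → Set (Subgroup G)) (hf : IsNormalizerFunctor p f) (S : Sylow p G)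
    (M : Subgroup G) (hSM : (S : Subgroup G) ≤ M) (hr : IsFunctorRegular p f M) {A B : Sylow p G}
    (hA : (A : Subgroup G) ≤ M) (hB : (B : Subgroup G) ≤ M) (hne : (A : Subgroup G) ⊓ (B : Subgroup G) ≠ ⊥) :
    Relation.ReflTransGen (Link (functorFamily p f ⊤) ((A : Subgroup G) ⊓ (B : Subgroup G))) A B := by
  classical
  by_cases hAB : A = B
  · rw [hAB]
  have hr' := (controls_iff _).mp hr (A.subtype hA) (B.subtype hB) (by
    intro h
    apply hAB
    apply Sylow.ext
    have h1 : (A : Subgroup G).subgroupOf M = (B : Subgroup G).subgroupOf M := congrArg (fun P : Sylow p ↥M => (P : Subgroup ↥M)) h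
    have h2 := congrArg (Subgroup.map M.subtype) h1
    rwa [Subgroup.subgroupOf_map_subtype, Subgroup.subgroupOf_map_subtype, inf_eq_left.mpr hA, inf_eq_left.mpr hB] at h2)
    (by
      show (A : Subgroup G).subgroupOf M ⊓ (B : Subgroup G).subgroupOf M ≠ ⊥
      intro h
      apply hne
      rw [eq_bot_iff]
      intro y hy
      have h3 : (⟨y, hA hy.1⟩ : ↥M) ∈ (A : Subgroup G).subgroupOf M ⊓ (B : Subgroup G).subgroupOf M := ⟨hy.1, hy.2⟩
      rw [h] at h3
      exact congrArg Subtype.val (Subgroup.mem_bot.mp h3))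
  -- transfer
  have key : ∀ P Q : Sylow p ↥M, Relation.ReflTransGen (Link ((fun X : Subgroup G => X.subgroupOf M) '' functorFamily p f M)
      (((A.subtype hA : Sylow p ↥M) : Subgroup ↥M) ⊓ ((B.subtype hB : Sylow p ↥M) : Subgroup ↥M))) P Q →
      ∀ U : Sylow p G, (U : Subgroup G) = (P : Subgroup ↥M).map M.subtype →
      ∀ V : Sylow p G, (V : Subgroup G) = (Q : Subgroup ↥M).map M.subtype →
      Relation.ReflTransGen (Link (functorFamily p f ⊤) ((A : Subgroup G) ⊓ (B : Subgroup G))) U V := by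
    intro P Q hPQ
    induction hPQ with
    | refl => intro U hU V hV; have : U = V := Sylow.ext (hU.trans hV.symm); rw [this]
    | @tail Q' Q'' _ hl ih =>
      intro U hU V hV
      obtain ⟨W, hW⟩ := exists_up M S hSM Q'
      refine (ih U hU W hW).tail ?_
      obtain ⟨_, ⟨x, hxM⟩, ⟨⟨X, ⟨P₀, F, hF, hX⟩, rfl⟩, hX1⟩, ⟨-, hX2⟩, hx, hxc, hR⟩ := hl
      obtain ⟨U₀, hU₀⟩ := exists_up M S hSM P₀
      have hPN : (U₀ : Subgroup G) ≤ Subgroup.normalizer (F : Set G) := by
        rw [hU₀]
        refine le_trans Subgroup.le_normalizer ?_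
        exact ((hf _ (by rw [← hU₀]; exact U₀.2)).1 F hF).2
      have hU₀M : (U₀ : Subgroup G) ≤ M := by rw [hU₀]; exact Subgroup.map_subtype_le _
      have hXM : X ≤ M := hX ▸ inf_le_left
      have hU₀X : (U₀ : Subgroup G) ≤ X := by rw [hX]; exact le_inf hU₀M hPN
      -- containment
      have hcont : ∀ (Q₀ : Sylow p ↥M) (Y : Sylow p G), (Y : Subgroup G) = (Q₀ : Subgroup ↥M).map M.subtype →
          (∃ P : Sylow p ↥(X.subgroupOf M), (P : Subgroup ↥(X.subgroupOf M)).map (X.subgroupOf M).subtype = (Q₀ : Subgroup ↥M) ⊓ X.subgroupOf M) →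
          (Y : Subgroup G) ≤ X := by
        intro Q₀ Y hY hQ₀
        rw [exists_sylow_map_iff] at hQ₀
        have h1 := hQ₀.2
        have h2 : Nat.card ↥(X.subgroupOf M) = Nat.card ↥X := Nat.card_congr (Subgroup.subgroupOfEquivOfLe hXM).toEquiv
        have h3 : (Nat.card ↥X).factorization p = (Nat.card G).factorization p := card_sub X U₀ hU₀X
        have h4 : Nat.card ↥(Q₀ : Subgroup ↥M) = p ^ (Nat.card G).factorization p := by
          rw [Q₀.card_eq_multiplicity]; congr 1; exact card_sub M S hSM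
        rw [h2, h3, ← h4] at h1
        have h5 : (Q₀ : Subgroup ↥M) ⊓ X.subgroupOf M = (Q₀ : Subgroup ↥M) := Subgroup.eq_of_le_of_card_ge inf_le_left h1.ge
        rw [hY, ← h5]
        exact (Subgroup.map_mono inf_le_right).trans (by rw [Subgroup.subgroupOf_map_subtype]; exact inf_le_left)
      have hWX := hcont Q' W hW hX1
      have hVX := hcont Q'' V hV hX2
      have hXN : X ≤ Subgroup.normalizer (F : Set G) := hX ▸ inf_le_right
      have hmem : ∀ Y : Sylow p G, (Y : Subgroup G) ≤ X →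
          Subgroup.normalizer (F : Set G) ∈ sylowMembers p (functorFamily p f ⊤) (Y : Subgroup G) := by
        intro Y hY
        rw [mem_sylowMembers_iff]
        refine ⟨mem_functorFamily_top f U₀ F (by rw [hU₀]; exact hF), ?_⟩
        rw [inf_eq_left.mpr (hY.trans hXN)]
        have := card_sub _ Y (hY.trans hXN)
        unfold vp at this
        rw [this]
        exact Y.card_eq_multiplicity
      refine ⟨Subgroup.normalizer (F : Set G), x, hmem W hWX, hmem V hVX, ?_, ?_, ?_⟩
      · exact hXN hx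
      · rw [hV, hW, ← hxc]
        ext y
        rw [mem_conjRight_iff]
        constructor
        · rintro ⟨z, hz, hz'⟩
          have hyM : y ∈ M := by
            have h1 : x * y * x⁻¹ ∈ M := by rw [← hz']; exact z.2
            have h2 := M.mul_mem (M.mul_mem (M.inv_mem hxM) h1) hxM
            simpa [mul_assoc] using h2
          refine ⟨⟨y, hyM⟩, ?_, rfl⟩
          show (⟨y, hyM⟩ : ↥M) ∈ subgroupConjRight (⟨x, hxM⟩ : ↥M) (Q'' : Subgroup ↥M)
          rw [mem_conjRight_iff]
          have : (⟨x, hxM⟩ : ↥M) * ⟨y, hyM⟩ * (⟨x, hxM⟩ : ↥M)⁻¹ = z := Subtype.ext hz'.symm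
          rw [this]; exact hz
        · rintro ⟨z, hz, rfl⟩
          have hz : z ∈ subgroupConjRight (⟨x, hxM⟩ : ↥M) (Q'' : Subgroup ↥M) := hz
          rw [mem_conjRight_iff] at hz
          exact ⟨_, hz, rfl⟩
      · refine le_inf ?_ ?_
        · intro y hy
          have hyM : y ∈ M := hA hy.1
          have h1 := hR (x := (⟨y, hyM⟩ : ↥M)) ⟨hy.1, hy.2⟩
          rw [hV]; exact ⟨_, h1.1, rfl⟩
        · intro y hy
          have hyM : y ∈ M := hA hy.1
          have h1 := hR (x := (⟨y, hyM⟩ : ↥M)) ⟨hy.1, hy.2⟩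
          exact hXN h1.2
  refine key _ _ hr' A ?_ B ?_
  · show (A : Subgroup G) = ((A : Subgroup G).subgroupOf M).map M.subtype
    rw [Subgroup.subgroupOf_map_subtype, inf_eq_left.mpr hA]
  · show (B : Subgroup G) = ((B : Subgroup G).subgroupOf M).map M.subtype
    rw [Subgroup.subgroupOf_map_subtype, inf_eq_left.mpr hB]

/-- the family at `⊤` is a normal set -/
theorem normalSet_top (f : Subgroup G → Set (Subgroup G)) (hf : IsNormalizerFunctor p f) :
    IsNormalSet (functorFamily p f (⊤ : Subgroup G)) := by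
  rintro X ⟨P, F, hF, rfl⟩ g
  set Q : Subgroup G := (P : Subgroup ↥(⊤ : Subgroup G)).map (⊤ : Subgroup G).subtype with hQ
  have hQp : IsPGroup p ↥Q := P.2.map _
  have hQcard : Nat.card ↥Q = p ^ (Nat.card G).factorization p := by
    rw [hQ, card_sylow_sub]; unfold vp; rw [Subgroup.card_top]
  have h1 := (hf Q hQp).2 g⁻¹
  have hF' : subgroupConjRight g F ∈ f (Q.map (MulAut.conj g⁻¹).toMonoidHom) := by
    rw [h1]; exact ⟨F, hF, rfl⟩
  have hQcard' : Nat.card ↥(Q.map (MulAut.conj g⁻¹).toMonoidHom) = p ^ (Nat.card G).factorization p := by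
    rw [card_map_conj, hQcard]
  have h2 := mem_functorFamily_top f (Sylow.ofCard _ hQcard') (subgroupConjRight g F) hF'
  convert h2 using 1
  ext y
  rw [mem_conjRight_iff, top_inf_eq, Subgroup.mem_normalizer_iff, Subgroup.mem_normalizer_iff]
  constructor
  · intro h z
    rw [mem_conjRight_iff, mem_conjRight_iff]
    have h3 := h (g * z * g⁻¹)
    rw [h3]
    have : g * y * g⁻¹ * (g * z * g⁻¹) * (g * y * g⁻¹)⁻¹ = g * (y * z * y⁻¹) * g⁻¹ := by group
    rw [this]
  · intro h z
    have h3 := h (g⁻¹ * z * g)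
    rw [mem_conjRight_iff, mem_conjRight_iff] at h3
    have e1 : g * (g⁻¹ * z * g) * g⁻¹ = z := by group
    have e2 : g * (y * (g⁻¹ * z * g) * y⁻¹) * g⁻¹ = g * y * g⁻¹ * z * (g * y * g⁻¹)⁻¹ := by group
    rw [e1, e2] at h3
    exact h3

/-- transfer of links to the group `↥⊤`. -/
theorem link_top {𝓕 : Set (Subgroup G)} {R : Subgroup G} {A B : Sylow p G} (h : Link 𝓕 R A B)
    (A' B' : Sylow p ↥(⊤ : Subgroup G)) (hA' : (A' : Subgroup ↥(⊤ : Subgroup G)).map (⊤ : Subgroup G).subtype = A)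
    (hB' : (B' : Subgroup ↥(⊤ : Subgroup G)).map (⊤ : Subgroup G).subtype = B) :
    Link ((fun X : Subgroup G => X.subgroupOf ⊤) '' 𝓕) (R.subgroupOf ⊤) A' B' := by
  obtain ⟨X, x, h1, h2, h3, h4, h5⟩ := h
  have hinj : Function.Injective (Subgroup.map (⊤ : Subgroup G).subtype) := Subgroup.map_injective (Subgroup.subtype_injective _)
  have hmapX : (X.subgroupOf ⊤).map (⊤ : Subgroup G).subtype = X := by
    rw [Subgroup.subgroupOf_map_subtype, inf_top_eq]
  have hinf : ∀ P : Subgroup ↥(⊤ : Subgroup G), (P ⊓ X.subgroupOf ⊤).map (⊤ : Subgroup G).subtype = P.map (⊤ : Subgroup G).subtype ⊓ X := by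
    intro P
    rw [Subgroup.map_inf _ _ _ (Subgroup.subtype_injective _), hmapX]
  have hmem : ∀ (P : Sylow p G) (P' : Sylow p ↥(⊤ : Subgroup G)), (P' : Subgroup ↥(⊤ : Subgroup G)).map (⊤ : Subgroup G).subtype = P →
      X ∈ sylowMembers p 𝓕 (P : Subgroup G) → X.subgroupOf ⊤ ∈ sylowMembers p ((fun X : Subgroup G => X.subgroupOf ⊤) '' 𝓕) (P' : Subgroup ↥(⊤ : Subgroup G)) := by
    intro P P' hP hX
    rw [mem_sylowMembers_iff] at hX ⊢
    refine ⟨⟨X, hX.1, rfl⟩, ?_⟩
    have e1 : Nat.card ↥((P' : Subgroup ↥(⊤ : Subgroup G)) ⊓ X.subgroupOf ⊤) = Nat.card ↥((P : Subgroup G) ⊓ X) := by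
      rw [← hP, ← hinf]
      exact (Subgroup.card_map_of_injective (Subgroup.subtype_injective _)).symm
    have e2 : Nat.card ↥(X.subgroupOf ⊤) = Nat.card ↥X := by
      conv_rhs => rw [← hmapX]
      exact (Subgroup.card_map_of_injective (Subgroup.subtype_injective _)).symm
    rw [e1, e2]; exact hX.2
  refine ⟨X.subgroupOf ⊤, ⟨x, trivial⟩, hmem A A' hA' h1, hmem B B' hB' h2, h3, ?_, ?_⟩
  · apply Subgroup.ext
    intro y
    have h6 : (y : G) ∈ subgroupConjRight x (B : Subgroup G) ↔ (y : G) ∈ (A : Subgroup G) := by rw [h4]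
    rw [mem_conjRight_iff, ← hA', ← hB'] at h6
    rw [mem_conjRight_iff]
    constructor
    · intro h
      obtain ⟨z, hz, hz'⟩ := h6.mp ⟨_, h, rfl⟩
      have : z = y := Subtype.ext hz'
      rwa [← this]
    · intro h
      obtain ⟨z, hz, hz'⟩ := h6.mpr ⟨_, h, rfl⟩
      have : z = (⟨x, trivial⟩ : ↥(⊤ : Subgroup G)) * y * (⟨x, trivial⟩ : ↥(⊤ : Subgroup G))⁻¹ := Subtype.ext hz'
      rwa [← this]
  · intro y hy
    have h6 := h5 (show (y : G) ∈ R from hy)
    refine ⟨?_, h6.2⟩
    have h7 : (y : G) ∈ (B : Subgroup G) := h6.1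
    rw [← hB'] at h7
    obtain ⟨z, hz, hz'⟩ := h7
    have : z = y := Subtype.ext hz'
    rwa [← this]

/-- `⊤` is regular if all pairs are linked in `G`. -/
theorem regular_top (f : Subgroup G → Set (Subgroup G))
    (h : ∀ A B : Sylow p G, (A : Subgroup G) ⊓ (B : Subgroup G) ≠ ⊥ →
      Relation.ReflTransGen (Link (functorFamily p f ⊤) ((A : Subgroup G) ⊓ (B : Subgroup G))) A B) :
    IsFunctorRegular p f (⊤ : Subgroup G) := by
  unfold IsFunctorRegular
  rw [controls_iff]
  intro A B hAB hne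
  have hcard : ∀ P : Sylow p ↥(⊤ : Subgroup G), Nat.card ↥((P : Subgroup ↥(⊤ : Subgroup G)).map (⊤ : Subgroup G).subtype) = p ^ (Nat.card G).factorization p := by
    intro P; rw [card_sylow_sub]; unfold vp; rw [Subgroup.card_top]
  let up : Sylow p ↥(⊤ : Subgroup G) → Sylow p G := fun P => Sylow.ofCard _ (hcard P)
  have hup : ∀ P, ((up P : Sylow p G) : Subgroup G) = (P : Subgroup ↥(⊤ : Subgroup G)).map (⊤ : Subgroup G).subtype := fun P => rfl
  have hinj : Function.Injective (Subgroup.map (⊤ : Subgroup G).subtype) := Subgroup.map_injective (Subgroup.subtype_injective _)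
  have hdown : ∀ U : Sylow p G, ∃ P : Sylow p ↥(⊤ : Subgroup G), up P = U := by
    intro U
    refine ⟨U.subtype le_top, ?_⟩
    apply Sylow.ext
    show ((U : Subgroup G).subgroupOf ⊤).map (⊤ : Subgroup G).subtype = U
    rw [Subgroup.subgroupOf_map_subtype, inf_top_eq]
  have h1 := h (up A) (up B) (by
    intro h
    apply hne
    rw [hup, hup, ← Subgroup.map_inf _ _ _ (Subgroup.subtype_injective _)] at h
    exact (Subgroup.map_eq_bot_iff_of_injective _ (Subgroup.subtype_injective _)).mp h)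
  have hR : (((up A : Sylow p G) : Subgroup G) ⊓ ((up B : Sylow p G) : Subgroup G)).subgroupOf ⊤ = (A : Subgroup ↥(⊤ : Subgroup G)) ⊓ (B : Subgroup ↥(⊤ : Subgroup G)) := by
    apply hinj
    rw [Subgroup.subgroupOf_map_subtype, inf_top_eq, hup, hup, Subgroup.map_inf _ _ _ (Subgroup.subtype_injective _)]
  rw [← hR]
  generalize ((up A : Sylow p G) : Subgroup G) ⊓ ((up B : Sylow p G) : Subgroup G) = R at h1
  have hupinj : Function.Injective up := by
    intro P Q hPQ
    apply Sylow.ext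
    apply hinj
    rw [← hup, ← hup, hPQ]
  obtain ⟨U, hU⟩ : ∃ U, up A = U := ⟨_, rfl⟩
  obtain ⟨V, hV⟩ : ∃ V, up B = V := ⟨_, rfl⟩
  rw [hU, hV] at h1
  clear hR hAB hne
  induction h1 generalizing B with
  | refl => rw [hupinj (hU.trans hV.symm)]
  | @tail W V _ hl ih =>
    obtain ⟨C, hC⟩ := hdown W
    exact (ih C hC).tail (link_top hl C B (by rw [← hC, hup]) (by rw [← hV, hup]))

end

end Cfsg.Agent.H18.Syl4
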