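import Cfsg.Agent.H17_StrEmb
import Cfsg.Agent.H17_Base2
import Cfsg.Prelude.Def_SylowChains

set_option autoImplicit false

/-!
The graph on the Sylow subgroups and strongly embedded subgroups.
-/

namespace Cfsg.Agent.H18.SylGraph

open Subgroup Cfsg Cfsg.Agent.H17.Base Cfsg.Agent.H17.StrEmb
open scoped Pointwise

universe u
variable {G : Type u} [Group G] {p : ℕ}

/-- adjacency: distinct and meeting nontrivially -/
def Adj (A B : Sylow p G) : Prop := A ≠ B ∧ (A : Subgroup G) ⊓ (B : Subgroup G) ≠ ⊥

theorem adj_symm {A B : Sylow p G} (h : Adj A B) : Adj B A := ⟨h.1.symm, by rw [inf_comm]; exact h.2⟩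

theorem rtg_symm {A B : Sylow p G} (h : Relation.ReflTransGen Adj A B) : Relation.ReflTransGen Adj B A := by
  induction h with
  | refl => exact Relation.ReflTransGen.refl
  | tail _ h ih => exact Relation.ReflTransGen.head (adj_symm h) ih

theorem adj_conj (g : G) {A B : Sylow p G} (h : Adj A B) : Adj (g • A) (g • B) := by
  refine ⟨fun h1 => h.1 (smul_left_cancel g h1), ?_⟩
  intro h1
  apply h.2
  have h2 : ((g • A : Sylow p G) : Subgroup G) ⊓ ((g • B : Sylow p G) : Subgroup G) = cj g ((A : Subgroup G) ⊓ (B : Subgroup G)) := by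
    rw [cj_inf]; rfl
  rw [h2] at h1
  by_contra h3
  exact cj_ne_bot h3 h1

theorem rtg_conj (g : G) {A B : Sylow p G} (h : Relation.ReflTransGen Adj A B) :
    Relation.ReflTransGen Adj (g • A) (g • B) := by
  induction h with
  | refl => exact Relation.ReflTransGen.refl
  | tail _ h ih => exact ih.tail (adj_conj g h)

/-- chain connectedness through the reflexive transitive closure. -/
theorem connected_iff : IsSylowChainConnected p G ↔ ∀ S T : Sylow p G, Relation.ReflTransGen Adj S T := by
  constructor
  · intro h S T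
    obtain ⟨n, c, h0, hn, -, hc⟩ := h S T
    have key : ∀ (k : ℕ) (hk : k < n + 1), Relation.ReflTransGen Adj (c 0) (c ⟨k, hk⟩) := by
      intro k
      induction k with
      | zero => intro _; exact Relation.ReflTransGen.refl
      | succ k ih =>
        intro hk
        exact (ih (by omega)).tail (hc ⟨k, by omega⟩)
    have := key n (by omega)
    rw [h0] at this
    have h2 : (⟨n, by omega⟩ : Fin (n + 1)) = Fin.last n := rfl
    rw [h2, hn] at this
    exact this
  · intro h S T
    by_cases hST : S = T
    · subst hST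
      refine ⟨0, fun _ => S, rfl, rfl, fun _ => inf_le_left, fun i => i.elim0⟩
    by_cases hne : (S : Subgroup G) ⊓ (T : Subgroup G) = ⊥
    · -- any chain will do
      have key : ∀ S T : Sylow p G, Relation.ReflTransGen Adj S T → ∃ (n : ℕ) (c : Fin (n + 1) → Sylow p G), c 0 = S ∧ c (Fin.last n) = T ∧
          ∀ i : Fin n, c i.castSucc ≠ c i.succ ∧ (c i.castSucc : Subgroup G) ⊓ (c i.succ : Subgroup G) ≠ ⊥ := by
        intro S T hST
        induction hST with
        | refl => exact ⟨0, fun _ => S, rfl, rfl, fun i => i.elim0⟩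
        | @tail A B _ hAB ih =>
          obtain ⟨n, c, h0, hn, hc⟩ := ih
          refine ⟨n + 1, Fin.snoc c B, ?_, ?_, ?_⟩
          · have : (0 : Fin (n + 1 + 1)) = Fin.castSucc 0 := rfl
            rw [this, Fin.snoc_castSucc, h0]
          · exact Fin.snoc_last _ _
          · intro i
            refine Fin.lastCases ?_ (fun j => ?_) i
            · rw [Fin.snoc_castSucc, Fin.succ_last, Fin.snoc_last, hn]
              exact hAB
            · rw [Fin.snoc_castSucc, Fin.succ_castSucc, Fin.snoc_castSucc]
              exact hc j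
      obtain ⟨n, c, h0, hn, hc⟩ := key S T (h S T)
      exact ⟨n, c, h0, hn, fun i => by rw [hne]; exact bot_le, hc⟩
    · refine ⟨1, ![S, T], rfl, rfl, ?_, ?_⟩
      · intro i
        fin_cases i
        · exact inf_le_left
        · exact inf_le_right
      · intro i
        fin_cases i
        exact ⟨hST, hne⟩

variable [Finite G] [Fact p.Prime]

theorem iForm_iff_not_connected : ¬ IsSylowChainConnected p G ↔
    ∃ H : Subgroup G, H ≠ ⊤ ∧ p ∣ Nat.card H ∧ IForm p H := by
  rw [connected_iff]
  constructor
  · intro h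
    push Not at h
    obtain ⟨S, T, hST⟩ := h
    -- stabilizer of the component of `S`
    let H : Subgroup G :=
      { carrier := {g | Relation.ReflTransGen Adj S (g • S)}
        one_mem' := by show Relation.ReflTransGen Adj S ((1 : G) • S); rw [one_smul]
        mul_mem' := by
          intro a b ha hb
          show Relation.ReflTransGen Adj S ((a * b) • S)
          have h1 := rtg_conj a (show Relation.ReflTransGen Adj S (b • S) from hb)
          rw [← mul_smul] at h1
          exact (show Relation.ReflTransGen Adj S (a • S) from ha).trans h1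
        inv_mem' := by
          intro a ha
          have h1 := rtg_conj a⁻¹ (show Relation.ReflTransGen Adj S (a • S) from ha)
          rw [inv_smul_smul] at h1
          exact rtg_symm h1 }
    have hSH : (S : Subgroup G) ≤ H := by
      intro s hs
      show Relation.ReflTransGen Adj S (s • S)
      rw [Sylow.smul_eq_iff_mem_normalizer.mpr (Subgroup.le_normalizer hs)]
    have hmemH : ∀ g : G, g ∈ H ↔ Relation.ReflTransGen Adj S (g • S) := fun g => Iff.rfl
    have hSne : (S : Subgroup G) ≠ ⊥ := by
      intro h0
      apply hST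
      have h1 : Nat.card ↥(T : Subgroup G) = Nat.card ↥(S : Subgroup G) := by
        rw [T.card_eq_multiplicity, S.card_eq_multiplicity]
      rw [h0, card_bot] at h1
      have h2 : S = T := Sylow.ext (by rw [h0, card_eq_one.mp h1])
      rw [h2]
    refine ⟨H, ?_, (Cfsg.Agent.H17.StrEmb.dvd_card_of_ne_bot S.2 hSne).trans (card_dvd_of_le hSH), ?_⟩
    · intro htop
      obtain ⟨g, hg⟩ := MulAction.exists_smul_eq G S T
      have h1 : g ∈ H := by rw [htop]; trivial
      rw [hmemH, hg] at h1
      exact hST h1
    · intro g hg hdvd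
      apply hg
      obtain ⟨x, hx⟩ := exists_prime_orderOf_dvd_card' p hdvd
      set X := zpowers (x : G) with hX
      have hXp : IsPGroup p ↥X := zpowers_isPGroup_of_orderOf (k := 1) (by rw [Subgroup.orderOf_coe, hx, pow_one])
      have hXne : X ≠ ⊥ := zpowers_ne_bot_of_orderOf (by rw [Subgroup.orderOf_coe, hx])
      have hXH : X ≤ H := zpowers_le.mpr x.2.1
      have hXgH : X ≤ cj g H := zpowers_le.mpr x.2.2
      have hS : IsSylowIn p (S : Subgroup G) H := (isSylowIn_coe S).mono hSH le_top
      obtain ⟨h, hh, hhX⟩ := hS.exists_conj_le hXp hXH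
      obtain ⟨h', hh', hhX'⟩ := hS.exists_conj_le (cj_isPGroup hXp (g := g⁻¹)) (by rw [cj_le_iff, inv_inv]; exact hXgH)
      have h1 : X ≤ ((h⁻¹ • S : Sylow p G) : Subgroup G) := by
        show X ≤ cj h⁻¹ (S : Subgroup G)
        exact cj_le_iff.mp hhX
      have h2 : X ≤ ((g • (h'⁻¹ • S) : Sylow p G) : Subgroup G) := by
        show X ≤ cj g (cj h'⁻¹ (S : Subgroup G))
        have h3 := cj_le_iff.mp hhX'
        have h4 := cj_mono (g := g) h3
        rwa [cj_cj_inv] at h4
      have h3 : Relation.ReflTransGen Adj (h⁻¹ • S) (g • (h'⁻¹ • S)) := by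
        by_cases heq : h⁻¹ • S = g • (h'⁻¹ • S)
        · rw [heq]
        · apply Relation.ReflTransGen.single
          refine ⟨heq, ?_⟩
          intro h0
          have h5 : X ≤ ⊥ := by rw [← h0]; exact le_inf h1 h2
          exact hXne (le_bot_iff.mp h5)
      have h4 : Relation.ReflTransGen Adj S (h⁻¹ • S) := (hmemH _).mp (H.inv_mem hh)
      have h5 : Relation.ReflTransGen Adj S (h'⁻¹ • S) := (hmemH _).mp (H.inv_mem hh')
      rw [hmemH]
      exact (h4.trans h3).trans (rtg_symm (rtg_conj g h5))
  · rintro ⟨H, hHtop, hpH, hI⟩ hcon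
    have hNF : NForm p H := nForm_of_iForm hI
    obtain ⟨P, hP⟩ := exists_isSylowIn p H
    have hPtop : IsSylowIn p P ⊤ := hNF.isSylowIn_top hpH hP
    have hPne : P ≠ ⊥ := isSylowIn_ne_bot hP hpH
    set S := hPtop.toSylowTop with hS
    have hSP : (S : Subgroup G) = P := hPtop.coe_toSylowTop
    have hall : ∀ T : Sylow p G, Relation.ReflTransGen Adj S T → (T : Subgroup G) ≤ H := by
      intro T hT
      induction hT with
      | refl => rw [hSP]; exact hP.le
      | @tail A B _ hAB ih =>
        obtain ⟨g, rfl⟩ := MulAction.exists_smul_eq G A B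
        have h1 : g ∈ H := by
          by_contra hg
          apply hI g hg
          have h2 : (A : Subgroup G) ⊓ ((g • A : Sylow p G) : Subgroup G) ≤ H ⊓ H.map (MulAut.conj g).toMonoidHom :=
            inf_le_inf ih (cj_mono ih)
          exact (Cfsg.Agent.H17.StrEmb.dvd_card_of_ne_bot (A.2.to_le inf_le_left) hAB.2).trans (card_dvd_of_le h2)
        show cj g (A : Subgroup G) ≤ H
        rw [cj_le_iff]
        intro a ha
        rw [mem_cj]
        have := H.mul_mem (H.mul_mem h1 (ih ha)) (H.inv_mem h1)
        simpa using this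
    apply hHtop
    rw [eq_top_iff]
    rintro g -
    by_contra hg
    apply hI g hg
    have h1 : ((g • S : Sylow p G) : Subgroup G) ≤ H := hall _ (hcon S (g • S))
    have h2 : cj g P ≤ H ⊓ H.map (MulAut.conj g).toMonoidHom := by
      refine le_inf ?_ (cj_mono hP.le)
      rw [← hSP]; exact h1
    have h3 : p ∣ Nat.card ↥(cj g P) := by
      rw [card_cj]; exact Cfsg.Agent.H17.StrEmb.dvd_card_of_ne_bot hP.isPGroup hPne
    exact h3.trans (card_dvd_of_le h2)

end Cfsg.Agent.H18.SylGraph
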