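import Mathlib
import Cfsg.Agent.H19_A6d

/-! Self-centralizing elementary abelian Sylow 3-subgroups of order nine: orbits and counting. -/

set_option autoImplicit false
namespace Cfsg.Agent.H19.A6c
open Subgroup
variable {G : Type*} [Group G] {S : Subgroup G}

theorem Cx.orb [Finite G] (h : Cx S) {x : G} (hx : x ∈ S) (hx1 : x ≠ 1) :
    Nat.card {y : G // y ∈ S ∧ IsConj x y} * 9 = Nat.card (Subgroup.normalizer (S : Set G)) := by
  obtain ⟨N, hN⟩ : ∃ N, N = Subgroup.normalizer (S : Set G) := ⟨_, rfl⟩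
  rw [← hN]
  letI : MulAction N G := MulAction.compHom G ((MulAut.conj : G →* MulAut G).comp N.subtype)
  have hsm : ∀ (n : N) (g : G), n • g = n * g * (n : G)⁻¹ := fun _ _ => rfl
  have h2 : MulAction.orbit N x = {y | y ∈ S ∧ IsConj x y} := by
    ext y
    rw [MulAction.mem_orbit_iff]
    constructor
    · rintro ⟨n, rfl⟩
      have hn : (n : G) ∈ Subgroup.normalizer (S : Set G) := by rw [← hN]; exact n.2
      refine ⟨?_, isConj_iff.2 ⟨n, rfl⟩⟩
      rw [hsm]
      exact (Subgroup.mem_normalizer_iff.1 hn x).1 hx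
    · rintro ⟨hy, hc⟩
      obtain ⟨g, hg⟩ := isConj_iff.1 hc
      have hgN : g ∈ N := by rw [hN]; exact h.ti hx hx1 (by rw [hg]; exact hy)
      exact ⟨⟨g, hgN⟩, hg⟩
  have hSN : S ≤ N := by rw [hN]; exact Subgroup.le_normalizer
  have h3 : Nat.card (MulAction.stabilizer N x) = 9 := by
    have h4 : (MulAction.stabilizer N x).map N.subtype = S := by
      ext y
      rw [Subgroup.mem_map]
      constructor
      · rintro ⟨n, hn, rfl⟩
        rw [MulAction.mem_stabilizer_iff, hsm] at hn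
        apply h.mem_cen hx hx1
        exact mul_inv_eq_iff_eq_mul.1 hn
      · intro hy
        refine ⟨⟨y, hSN hy⟩, ?_, rfl⟩
        rw [MulAction.mem_stabilizer_iff, hsm]
        exact mul_inv_eq_iff_eq_mul.2 (h.comm _ hy _ hx)
    rw [← h.h9, ← h4, Subgroup.card_map_of_injective N.subtype_injective]
  have h5 := MulAction.index_stabilizer N x
  have h6 := (MulAction.stabilizer N x).index_mul_card
  rw [h3, h5, h2] at h6
  exact h6

section fin
variable [Fintype G] [DecidableEq G] [DecidablePred (· ∈ S)] [∀ x : G, DecidablePred (IsConj x)]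

variable (S) in
/-- conjugates of `x` in `S`. -/
def Fo (x : G) : Finset G :=
  Finset.univ.filter (fun y => y ∈ S ∧ IsConj x y)

theorem mem_Fo {x y : G} : y ∈ Fo S x ↔ y ∈ S ∧ IsConj x y := by
  rw [Fo, Finset.mem_filter]; simp

theorem Cx.card_Fo (h : Cx S) {x : G} (hx : x ∈ S) (hx1 : x ≠ 1) :
    (Fo S x).card * 9 = Nat.card (Subgroup.normalizer (S : Set G)) := by
  rw [← h.orb hx hx1, Nat.card_eq_fintype_card, Fintype.card_subtype]; rfl

theorem Fo_disj {x y : G} (hxy : ¬ IsConj x y) : Disjoint (Fo S x) (Fo S y) := by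
  rw [Finset.disjoint_left]
  intro z hz hz'
  exact hxy ((mem_Fo.1 hz).2.trans (mem_Fo.1 hz').2.symm)

theorem card_filter : (Finset.univ.filter (· ∈ S)).card = Nat.card S := by
  rw [Nat.card_eq_fintype_card, Fintype.card_subtype]

theorem Cx.union_sub (h : Cx S) {x y : G} (hx1 : x ≠ 1) (hy1 : y ≠ 1) :
    insert 1 (Fo S x ∪ Fo S y) ⊆ Finset.univ.filter (· ∈ S) := by
  intro z hz
  rw [Finset.mem_filter]
  refine ⟨Finset.mem_univ _, ?_⟩
  rw [Finset.mem_insert, Finset.mem_union] at hz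
  rcases hz with rfl | hz | hz
  · exact one_mem S
  · exact (mem_Fo.1 hz).1
  · exact (mem_Fo.1 hz).1

theorem one_notMem {x y : G} (hx1 : x ≠ 1) (hy1 : y ≠ 1) : (1 : G) ∉ Fo S x ∪ Fo S y := by
  intro hz
  rw [Finset.mem_union] at hz
  rcases hz with hz | hz
  · exact hx1 (isConj_one_right.1 (mem_Fo.1 hz).2.symm)
  · exact hy1 (isConj_one_right.1 (mem_Fo.1 hz).2.symm)

theorem Cx.le8 (h : Cx S) {x y : G} (hx1 : x ≠ 1) (hy1 : y ≠ 1) (hxy : ¬ IsConj x y) :
    (Fo S x).card + (Fo S y).card ≤ 8 := by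
  have h1 := Finset.card_le_card (h.union_sub hx1 hy1)
  rw [card_filter, h.h9, Finset.card_insert_of_notMem (one_notMem hx1 hy1),
    Finset.card_union_of_disjoint (Fo_disj hxy)] at h1
  omega

theorem Cx.eq8 (h : Cx S) {x y : G} (hx1 : x ≠ 1) (hy1 : y ≠ 1) (hxy : ¬ IsConj x y)
    (hx4 : (Fo S x).card = 4) (hy4 : (Fo S y).card = 4) :
    insert 1 (Fo S x ∪ Fo S y) = Finset.univ.filter (· ∈ S) := by
  apply Finset.eq_of_subset_of_card_le (h.union_sub hx1 hy1)
  rw [card_filter, h.h9, Finset.card_insert_of_notMem (one_notMem hx1 hy1),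
    Finset.card_union_of_disjoint (Fo_disj hxy), hx4, hy4]

theorem Cx.sum4 (h : Cx S) {x y : G} (hx1 : x ≠ 1) (hy1 : y ≠ 1) (hxy : ¬ IsConj x y)
    (hx4 : (Fo S x).card = 4) (hy4 : (Fo S y).card = 4) {f : G → ℂ} (hf : ∀ a b, IsConj a b → f a = f b) :
    ∑ s : S, f s = f 1 + 4 * f x + 4 * f y := by
  have h1 : ∑ s : S, f s = ∑ s ∈ Finset.univ.filter (· ∈ S), f s := by
    rw [← Finset.sum_subtype_eq_sum_filter]
    simp
  rw [h1, ← h.eq8 hx1 hy1 hxy hx4 hy4, Finset.sum_insert (one_notMem hx1 hy1),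
    Finset.sum_union (Fo_disj hxy), Finset.sum_congr rfl (g := fun _ => f x) (fun z hz => (hf _ _ (mem_Fo.1 hz).2).symm),
    Finset.sum_congr (s₁ := Fo S y) rfl (g := fun _ => f y) (fun z hz => (hf _ _ (mem_Fo.1 hz).2).symm),
    Finset.sum_const, Finset.sum_const, hx4, hy4]
  simp; ring

/-- at most two solutions -/
theorem Cx.le2 (h : Cx S) {x y : G} (hx : x ∈ S) (hx1 : x ≠ 1) (hy : y ∈ S) (hy1 : y ≠ 1) (hxy : ¬ IsConj x y)
    (hinv : ∀ s ∈ S, IsConj s s⁻¹) (hx4 : (Fo S x).card = 4) :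
    (Finset.univ.filter (fun z : G => IsConj x z ∧ IsConj x (z⁻¹ * y))).card ≤ 2 := by
  have hyi := hinv y hy
  have ho : ∀ z, IsConj x z → orderOf z = 3 := by
    intro z hz
    obtain ⟨g, hg⟩ := isConj_iff.1 hz
    rw [← hg]
    have := h.order hx hx1
    rw [← this]
    exact (MulAut.conj g).orderOf_eq x
  obtain ⟨C, hC⟩ : ∃ C, C = Finset.univ.filter (fun z : G => IsConj x z ∧ IsConj x (z⁻¹ * y)) := ⟨_, rfl⟩
  rw [← hC]
  have hCm : ∀ z ∈ C, z ∈ S ∧ IsConj x z ∧ z⁻¹ * y ∈ S ∧ IsConj x (z⁻¹ * y) := by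
    intro z hz
    rw [hC, Finset.mem_filter] at hz
    have hzS : z ∈ S := by
      apply h.sol hy hy1 (ho z hz.2.1)
      · have := ho _ hz.2.2
        rw [← this]; exact pow_orderOf_eq_one _
      · intro hc
        exact hxy (hz.2.1.trans (hyi.trans hc).symm)
    exact ⟨hzS, hz.2.1, mul_mem (inv_mem hzS) hy, hz.2.2⟩
  have hsub : C ∪ C.image (·⁻¹) ⊆ Fo S x := by
    intro z hz
    rw [Finset.mem_union, Finset.mem_image] at hz
    rw [mem_Fo]
    rcases hz with hz | ⟨w, hw, rfl⟩
    · exact ⟨(hCm z hz).1, (hCm z hz).2.1⟩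
    · exact ⟨inv_mem (hCm w hw).1, (hCm w hw).2.1.trans (hinv w (hCm w hw).1)⟩
  have hdis : Disjoint C (C.image (·⁻¹)) := by
    rw [Finset.disjoint_left]
    intro z hz hz'
    rw [Finset.mem_image] at hz'
    obtain ⟨w, hw, hwz⟩ := hz'
    have hwz' : w = z⁻¹ := by rw [← hwz, inv_inv]
    subst hwz'
    obtain ⟨a1, a2, a3, a4⟩ := hCm z hz
    obtain ⟨b1, b2, b3, b4⟩ := hCm _ hw
    rw [inv_inv] at b3 b4
    have hz1 : z ≠ 1 := by rintro rfl; have := ho 1 a2; rw [orderOf_one] at this; omega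
    have hz3 := h.h3 z a1
    have hy3 := h.h3 y hy
    have hcm := h.comm z a1 y hy
    -- five distinct elements of Fo S x
    have hfive : ({z, z⁻¹, z⁻¹ * y, z * y, z * y⁻¹} : Finset G) ⊆ Fo S x := by
      intro u hu
      simp only [Finset.mem_insert, Finset.mem_singleton] at hu
      rw [mem_Fo]
      rcases hu with rfl | rfl | rfl | rfl | rfl
      · exact ⟨a1, a2⟩
      · exact ⟨b1, b2⟩
      · exact ⟨a3, a4⟩
      · exact ⟨b3, b4⟩
      · refine ⟨mul_mem a1 (inv_mem hy), ?_⟩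
        have := hinv _ a3
        have e : (z⁻¹ * y)⁻¹ = z * y⁻¹ := by
          rw [mul_inv_rev, inv_inv]
          exact (h.comm z a1 _ (inv_mem hy)).symm
        rw [e] at this
        exact a4.trans this
    have hzz : z * z = z⁻¹ := by
      rw [eq_inv_iff_mul_eq_one, ← pow_two, ← pow_succ]; exact hz3
    have hyy : y * y = y⁻¹ := by
      rw [eq_inv_iff_mul_eq_one, ← pow_two, ← pow_succ]; exact hy3
    have hzy : ¬ IsConj z y := fun hc => hxy (a2.trans hc)
    have hziy : ¬ IsConj z⁻¹ y := fun hc => hxy (b2.trans hc)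
    have n1 : z ≠ z⁻¹ := by
      intro e
      have : z * z = 1 := by nth_rw 2 [e]; exact mul_inv_cancel z
      rw [hzz] at this
      exact hz1 (inv_eq_one.1 this)
    have n2 : z ≠ z⁻¹ * y := by
      intro e
      have : y = z * z := by nth_rw 2 [e]; group
      rw [hzz] at this
      exact hziy (this ▸ IsConj.refl _)
    have n3 : z ≠ z * y := by
      intro e; exact hy1 (left_eq_mul.1 e)
    have n4 : z ≠ z * y⁻¹ := by
      intro e; exact hy1 (inv_eq_one.1 (left_eq_mul.1 e))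
    have n5 : z⁻¹ ≠ z⁻¹ * y := by
      intro e; exact hy1 (left_eq_mul.1 e)
    have n6 : z⁻¹ ≠ z * y := by
      intro e
      have : y = z⁻¹ * z⁻¹ := by nth_rw 2 [e]; group
      have e2 : z⁻¹ * z⁻¹ = z := by rw [← mul_inv_rev, hzz, inv_inv]
      rw [e2] at this
      exact hzy (this ▸ IsConj.refl _)
    have n7 : z⁻¹ ≠ z * y⁻¹ := by
      intro e
      have : y = z * z := by
        have : z * z = z * (z⁻¹)⁻¹ := by group
        rw [this, e, mul_inv_rev, inv_inv, ← mul_assoc, hcm]; group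
      rw [hzz] at this
      exact hziy (this ▸ IsConj.refl _)
    have n8 : z⁻¹ * y ≠ z * y := by
      intro e; exact n1 (mul_right_cancel e).symm
    have n9 : z⁻¹ * y ≠ z * y⁻¹ := by
      intro e
      have e1 : y * y = z * z := by
        have : z * (z⁻¹ * y) * y = z * (z * y⁻¹) * y := by rw [e]
        calc y * y = z * (z⁻¹ * y) * y := by group
          _ = _ := by rw [this]; group
      rw [hzz, hyy] at e1
      exact hzy (inv_injective e1 ▸ IsConj.refl _)
    have n10 : z * y ≠ z * y⁻¹ := by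
      intro e
      have e1 := mul_left_cancel e
      have : y * y = 1 := by nth_rw 2 [e1]; exact mul_inv_cancel y
      rw [hyy] at this
      exact hy1 (inv_eq_one.1 this)
    have hcard : ({z, z⁻¹, z⁻¹ * y, z * y, z * y⁻¹} : Finset G).card = 5 := by
      rw [Finset.card_insert_of_notMem, Finset.card_insert_of_notMem, Finset.card_insert_of_notMem,
        Finset.card_insert_of_notMem, Finset.card_singleton]
      · simp only [Finset.mem_singleton]; exact n10
      · simp only [Finset.mem_insert, Finset.mem_singleton, not_or]; exact ⟨n8, n9⟩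
      · simp only [Finset.mem_insert, Finset.mem_singleton, not_or]; exact ⟨n5, n6, n7⟩
      · simp only [Finset.mem_insert, Finset.mem_singleton, not_or]; exact ⟨n1, n2, n3, n4⟩
    have := Finset.card_le_card hfive
    rw [hcard, hx4] at this
    omega
  have h1 := Finset.card_le_card hsub
  rw [Finset.card_union_of_disjoint hdis, Finset.card_image_of_injective _ inv_injective, hx4] at h1
  omega

/-- no solutions -/
theorem Cx.eq0 (h : Cx S) {x y : G} (hx : x ∈ S) (hx1 : x ≠ 1) (hy : y ∈ S) (hy1 : y ≠ 1) (hxy : ¬ IsConj x y)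
    (hinv : ∀ s ∈ S, IsConj s s⁻¹) (hx2 : (Fo S x).card = 2) :
    (Finset.univ.filter (fun z : G => IsConj x z ∧ IsConj x (z⁻¹ * y))).card = 0 := by
  rw [Finset.card_eq_zero, Finset.filter_eq_empty_iff]
  rintro z - ⟨hz1, hz2⟩
  have ho : ∀ z, IsConj x z → orderOf z = 3 := by
    intro z hz
    obtain ⟨g, hg⟩ := isConj_iff.1 hz
    rw [← hg]
    have := h.order hx hx1
    rw [← this]
    exact (MulAut.conj g).orderOf_eq x
  have hzS : z ∈ S := by
    apply h.sol hy hy1 (ho z hz1)
    · have := ho _ hz2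
      rw [← this]; exact pow_orderOf_eq_one _
    · intro hc
      exact hxy (hz1.trans ((hinv y hy).trans hc).symm)
  have hx3 := h.h3 x hx
  have hxx : x * x = x⁻¹ := by
    rw [eq_inv_iff_mul_eq_one, ← pow_two, ← pow_succ]; exact hx3
  have n1 : x ≠ x⁻¹ := by
    intro e
    have : x * x = 1 := by nth_rw 2 [e]; exact mul_inv_cancel x
    rw [hxx] at this
    exact hx1 (inv_eq_one.1 this)
  have hsub : ({x, x⁻¹} : Finset G) ⊆ Fo S x := by
    intro u hu
    simp only [Finset.mem_insert, Finset.mem_singleton] at hu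
    rw [mem_Fo]
    rcases hu with rfl | rfl
    · exact ⟨hx, IsConj.refl _⟩
    · exact ⟨inv_mem hx, hinv x hx⟩
  have heq : ({x, x⁻¹} : Finset G) = Fo S x :=
    Finset.eq_of_subset_of_card_le hsub (by rw [hx2, Finset.card_pair n1])
  have hm : ∀ w, w ∈ S → IsConj x w → w = x ∨ w = x⁻¹ := by
    intro w h1 h2
    have : w ∈ Fo S x := mem_Fo.2 ⟨h1, h2⟩
    rw [← heq] at this
    simpa using this
  have hxi := hinv x hx
  have hye : y = z * (z⁻¹ * y) := by group
  have e2 : x⁻¹ * x⁻¹ = x := by rw [← mul_inv_rev, hxx, inv_inv]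
  rcases hm z hzS hz1 with h1 | h1 <;> rcases hm _ (mul_mem (inv_mem hzS) hy) hz2 with h2 | h2 <;>
    rw [h2, h1] at hye
  · rw [hxx] at hye; rw [hye] at hxy; exact hxy hxi
  · exact hy1 (by rw [hye]; group)
  · exact hy1 (by rw [hye]; group)
  · rw [e2] at hye; exact hxy (hye ▸ IsConj.refl _)

end fin

/-- a free action -/
theorem Cx.free [Finite G] (h : Cx S) :
    9 * Nat.card (Subgroup.normalizer (S : Set G)) ∣ Nat.card G - Nat.card (Subgroup.normalizer (S : Set G)) := by
  obtain ⟨N, hN⟩ : ∃ N, N = Subgroup.normalizer (S : Set G) := ⟨_, rfl⟩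
  rw [← hN]
  have hSN : S ≤ N := by rw [hN]; exact Subgroup.le_normalizer
  letI : MulAction (S × N) {g : G // g ∉ N} :=
    { smul := fun a g => ⟨a.1 * g * (a.2 : G)⁻¹, fun h' => g.2 (by
        have h1 := N.mul_mem (N.mul_mem (N.inv_mem (hSN a.1.2)) h') a.2.2
        have h2 : (a.1 : G)⁻¹ * (a.1 * g * (a.2 : G)⁻¹) * a.2 = g := by group
        rwa [h2] at h1)⟩
      one_smul := fun g => Subtype.ext (by
        change ((1 : S × N).1 : G) * g * ((1 : S × N).2 : G)⁻¹ = g
        simp)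
      mul_smul := fun a b g => Subtype.ext (by
        change ((a * b).1 : G) * g * ((a * b).2 : G)⁻¹ = a.1 * (b.1 * g * (b.2 : G)⁻¹) * (a.2 : G)⁻¹
        simp [mul_assoc]) }
  have h1 := Cfsg.Agent.H24.FratAut.card_dvd_of_free (A := S × N) (X := {g : G // g ∉ N}) (by
    rintro ⟨s, n⟩ ⟨g, hg⟩ e
    have e1 : (s : G) * g * (n : G)⁻¹ = g := congrArg Subtype.val e
    have hs : s = 1 := by
      by_contra hs
      have hs1 : (s : G) ≠ 1 := fun h' => hs (Subtype.ext h')
      have e2 : g⁻¹ * s * g = n := by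
        have : (s : G) * g = g * n := mul_inv_eq_iff_eq_mul.1 e1
        rw [mul_assoc, this]; group
      have h2 : g⁻¹ * s * g ∈ S := by
        apply h.n3
        · rw [← hN, e2]; exact n.2
        · have := map_pow (MulAut.conj g⁻¹) (s : G) 3
          simp only [MulAut.conj_apply, inv_inv] at this
          rw [← this, h.h3 s s.2]; simp
      have h3 : g⁻¹ ∈ N := by
        rw [hN]
        exact h.ti s.2 hs1 (by rw [inv_inv]; exact h2)
      exact hg (by simpa using N.inv_mem h3)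
    subst hs
    have hn : (n : G) = 1 := by
      have : (g : G) * (n : G)⁻¹ = g := by simpa using e1
      simpa using this
    have hn' : n = 1 := Subtype.ext hn
    rw [hn']; rfl)
  rw [Nat.card_prod, h.h9] at h1
  have h2 : Nat.card {g : G // g ∉ N} = Nat.card G - Nat.card N := by
    classical
    letI := Fintype.ofFinite G
    rw [Nat.card_eq_fintype_card, Nat.card_eq_fintype_card, Nat.card_eq_fintype_card,
      Fintype.card_subtype_compl]
  rwa [h2] at h1

end Cfsg.Agent.H19.A6c
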