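import Mathlib
import Cfsg.Agent.H19_A6e

/-! Self-centralizing elementary abelian Sylow 3-subgroups of order nine: the order of the group. -/

set_option autoImplicit false
namespace Cfsg.Agent.H19.A6c
open Cfsg Cfsg.Agent.H3.CharBasic Cfsg.Agent.H3.CharIrr Cfsg.Agent.H3.CharComplete
  Cfsg.Agent.H3.CharMult Cfsg.Agent.H3.CharInd Cfsg.Agent.H3.CharCalc Cfsg.Agent.H3.InvSum
  Cfsg.Agent.H3.CharGal Cfsg.Agent.H3.CharInt Cfsg.Agent.H3.CharQuot

variable {G : Type*} [Group G] {S : Subgroup G}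

theorem simple_ker [Fintype G] [IsSimpleGroup G] {χ : G → ℂ} (hχ : IsIrrCharacter G χ) (hχ1 : χ ≠ fun _ => 1)
    (g : G) (hg : χ g = χ 1) : g = 1 := by
  have hn := chKer_normal (IsIrr.isCharacter hχ)
  rcases hn.eq_bot_or_eq_top with h1 | h1
  · have h2 : g ∈ chKer χ (IsIrr.isCharacter hχ) := hg
    rw [h1, Subgroup.mem_bot] at h2
    exact h2
  · exfalso
    have h2 : ∀ x, χ x = χ 1 := fun x => by
      have : x ∈ chKer χ (IsIrr.isCharacter hχ) := by rw [h1]; trivial
      exact this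
    have h3 := ci_irr_ne hχ (isIrr_one (G := G)) hχ1
    rw [classInner] at h3
    have h4 := (mul_eq_zero.mp h3).resolve_left (inv_ne_zero (by exact_mod_cast Nat.card_pos.ne'))
    simp only [map_one, mul_one] at h4
    rw [Finset.sum_congr rfl (fun x _ => h2 x), Finset.sum_const, nsmul_eq_mul, mul_eq_zero] at h4
    rcases h4 with h5 | h5
    · have : (Finset.univ : Finset G).card ≠ 0 := by rw [Finset.card_univ]; exact Fintype.card_ne_zero
      exact this (by exact_mod_cast h5)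
    · exact IsIrr.one_ne_zero hχ h5

theorem Cx.ne2 [Fintype G] [IsSimpleGroup G] (h : Cx S) (hinv : ∀ s ∈ S, IsConj s s⁻¹) {x y : G} {t a b : ℤ}
    (hQ : A6b.Q x y t a b) : t ≠ 2 := by
  classical
  rintro rfl
  obtain ⟨_, θ, hθ, hθ1, hd, -, -⟩ := hQ
  have hc := IsIrr.isCharacter hθ
  have hv : ∀ s ∈ S, s ≠ 1 → θ s = -1 := by
    intro s hs hs1
    have ho := h.order hs hs1
    obtain ⟨n, hn⟩ := FT1.int_x hc ho (hinv s hs)
    have h3 := A6b.mod_three hc ho (hinv s hs) hn hd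
    have hle := IsChar.norm_le hc s
    rw [hn, hd] at hle
    have hle2 : |n| ≤ 2 := by
      have h1 : ‖((n : ℤ) : ℂ)‖ = |(n : ℝ)| := by simp
      have h2 : (((2 : ℤ) : ℂ)).re = 2 := by simp
      first
        | (rw [h1, h2] at hle; exact_mod_cast hle)
        | (simp at hle; exact_mod_cast hle)
    rw [abs_le] at hle2
    have hn2 : n = -1 ∨ n = 2 := by omega
    rcases hn2 with h2 | h2
    · rw [hn, h2]; norm_num
    · exact absurd (simple_ker hθ hθ1 s (by rw [hn, hd, h2])) hs1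
  letI : Fintype S := Fintype.ofFinite _
  obtain ⟨m, hm⟩ := A6b.res_sum hc S
  have h1 : ∀ s : S, θ s = (if s = 1 then (3 : ℂ) else 0) + (-1) := by
    intro s
    split_ifs with h2
    · rw [h2, Subgroup.coe_one, hd]; norm_num
    · rw [hv s s.2 (fun h' => h2 (Subtype.ext h'))]; norm_num
  rw [Finset.sum_congr rfl fun s _ => h1 s, Finset.sum_add_distrib, Finset.sum_ite_eq', Finset.sum_const,
    Finset.card_univ, ← Nat.card_eq_fintype_card, h.h9] at hm
  simp at hm
  have h2 : ((-6 : ℤ) : ℂ) = ((m * 9 : ℤ) : ℂ) := by push_cast; rw [← hm]; norm_num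
  have h3 := Int.cast_injective h2
  omega

theorem Cx.cong9 [Fintype G] (h : Cx S) [DecidablePred (· ∈ S)] [∀ x : G, DecidablePred (IsConj x)]
    {x y : G} (hx1 : x ≠ 1) (hy1 : y ≠ 1) (hxy : ¬ IsConj x y) (hx4 : (Fo S x).card = 4) (hy4 : (Fo S y).card = 4)
    {t a b : ℤ} (hQ : A6b.Q x y t a b) : (9 : ℤ) ∣ t + 4 * a + 4 * b := by
  classical
  obtain ⟨_, θ, hθ, hθ1, hd, ha, hb⟩ := hQ
  have hc := IsIrr.isCharacter hθ
  obtain ⟨m, hm⟩ := A6b.res_sum hc S
  rw [h.sum4 hx1 hy1 hxy hx4 hy4 (fun a b hab => IsClass.eq_of_isConj (IsChar.isClass hc) hab), h.h9, hd, ha, hb] at hm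
  have h2 : t + 4 * a + 4 * b = m * 9 := by exact_mod_cast hm
  exact ⟨m, by rw [h2]; ring⟩

theorem Cx.cong3 [Fintype G] {x y : G} (hx : orderOf x = 3) (hr : IsConj x x⁻¹)
    {t a b : ℤ} (hQ : A6b.Q x y t a b) : (3 : ℤ) ∣ t - a := by
  obtain ⟨_, θ, hθ, hθ1, hd, ha, hb⟩ := hQ
  exact A6b.mod_three (IsIrr.isCharacter hθ) hx hr ha hd

theorem Cx.main [Finite G] [IsSimpleGroup G] (P : Sylow 3 G) (h : Cx (P : Subgroup G)) {a b : G}
    (ha : orderOf a = 3) (hb : orderOf b = 3) (hab : ¬ IsConj a b) : Nat.card G = 360 := by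
  classical
  letI : Fintype G := Fintype.ofFinite G
  haveI : Fact (Nat.Prime 3) := ⟨by norm_num⟩
  obtain ⟨g, hg⟩ := h.cov a ha
  obtain ⟨k, hk⟩ := h.cov b hb
  obtain ⟨x, hx⟩ : ∃ x, x = g * a * g⁻¹ := ⟨_, rfl⟩
  obtain ⟨y, hy⟩ : ∃ y, y = k * b * k⁻¹ := ⟨_, rfl⟩
  have hxS : x ∈ (P : Subgroup G) := hx ▸ hg
  have hyS : y ∈ (P : Subgroup G) := hy ▸ hk
  have hax : IsConj a x := isConj_iff.2 ⟨g, hx.symm⟩
  have hby : IsConj b y := isConj_iff.2 ⟨k, hy.symm⟩
  have hxy : ¬ IsConj x y := fun hc => hab ((hax.trans hc).trans hby.symm)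
  have hx1 : x ≠ 1 := by
    rintro h1
    rw [h1] at hax
    rw [isConj_one_left.1 hax, orderOf_one] at ha
    omega
  have hy1 : y ≠ 1 := by
    rintro h1
    rw [h1] at hby
    rw [isConj_one_left.1 hby, orderOf_one] at hb
    omega
  obtain ⟨q, hq⟩ : ∃ q, q = (Fo (P : Subgroup G) x).card := ⟨_, rfl⟩
  have hNx := h.card_Fo hxS hx1
  have hNy := h.card_Fo hyS hy1
  have hqy : (Fo (P : Subgroup G) y).card = q := by omega
  have h8 := h.le8 hx1 hy1 hxy
  rw [hqy, ← hq] at h8
  rw [← hq] at hNx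
  have hNpos : 0 < Nat.card (Subgroup.normalizer ((P : Subgroup G) : Set G)) := Nat.card_pos
  have hPbot : (P : Subgroup G) ≠ ⊥ := by
    intro h1
    have := h.h9
    rw [h1, Subgroup.card_bot] at this
    omega
  have hq1 : q ≠ 1 := by
    intro hq1
    rw [hq1, one_mul] at hNx
    have h1 : (P : Subgroup G) = Subgroup.normalizer ((P : Subgroup G) : Set G) :=
      Cfsg.Agent.H1.Basic.eq_of_le_of_card_ge' Subgroup.le_normalizer (by rw [h.h9, ← hNx])
    have h2 : Subgroup.normalizer ((P : Subgroup G) : Set G) ≤ Subgroup.centralizer ((P : Subgroup G) : Set G) := by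
      rw [← h1]
      intro u hu
      rw [Subgroup.mem_centralizer_iff]
      intro v hv
      exact h.comm v hv u hu
    have h3 := MonoidHom.ker_transferSylow_isComplement' P h2
    have hker : (MonoidHom.transferSylow P h2).ker.Normal := inferInstance
    rcases hker.eq_bot_or_eq_top with h4 | h4
    · rw [h4] at h3
      have h5 : (P : Subgroup G) = ⊤ := Subgroup.isComplement'_bot_left.1 h3
      have hcm : ∀ u v : G, u * v = v * u := fun u v =>
        h.comm u (by rw [h5]; trivial) v (by rw [h5]; trivial)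
      have hn : (Subgroup.zpowers x).Normal := ⟨fun u hu v => by
        rw [hcm v u, mul_inv_cancel_right]; exact hu⟩
      rcases hn.eq_bot_or_eq_top with h6 | h6
      · exact hx1 (Subgroup.zpowers_eq_bot.1 h6)
      · have h7 : Nat.card (Subgroup.zpowers x) = Nat.card (P : Subgroup G) := by rw [h6, h5]
        rw [Nat.card_zpowers, h.order hxS hx1, h.h9] at h7
        omega
    · rw [h4] at h3
      exact hPbot (Subgroup.isComplement'_top_left.1 h3)
  have hq3 : q ≠ 3 := by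
    intro hq3
    rw [hq3] at hNx
    exact h.n27 (by
      have := Subgroup.card_subgroup_dvd_card (Subgroup.normalizer ((P : Subgroup G) : Set G))
      rw [← hNx] at this
      exact this)
  have hq24 : q = 2 ∨ q = 4 := by omega
  -- an involution in the normalizer
  obtain ⟨t, htN, ht2⟩ : ∃ t ∈ Subgroup.normalizer ((P : Subgroup G) : Set G), orderOf t = 2 := by
    haveI : Fact (Nat.Prime 2) := ⟨by norm_num⟩
    have h2 : 2 ∣ Nat.card (Subgroup.normalizer ((P : Subgroup G) : Set G)) := by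
      rcases hq24 with h1 | h1 <;> rw [h1] at hNx <;> omega
    obtain ⟨t, ht⟩ := exists_prime_orderOf_dvd_card' 2 h2
    exact ⟨t, t.2, by rw [Subgroup.orderOf_coe]; exact ht⟩
  have hinv : ∀ s ∈ (P : Subgroup G), IsConj s s⁻¹ := fun s hs => isConj_iff.2 ⟨t, h.inv htN ht2 hs⟩
  obtain ⟨p, D, t1, t2, t3, e1, e2, e3, hp, QD, Q1, Q2, Q3, he1, he2, he3, hE0, hE1⟩ :=
    A6b.data (h.order hxS hx1) (h.order hyS hy1) (by rw [h.cen x hxS hx1]; exact h.h9)
      (by rw [h.cen y hyS hy1]; exact h.h9) (hinv x hxS) (hinv y hyS) hxy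
  have hGpos : (0 : ℚ) < Nat.card G := by exact_mod_cast Nat.card_pos
  rcases hq24 with hq2 | hq4
  · exfalso
    have h0 := h.eq0 hxS hx1 hyS hy1 hxy hinv (by rw [← hq, hq2])
    rw [h0] at hE1
    have hox := h.order hxS hx1
    have hrx := hinv x hxS
    have hpos := A6a.num2 hp QD.1 Q1.1 Q2.1 Q3.1 he1 he2 he3 hE0
      (Cx.cong3 hox hrx Q1) (Cx.cong3 hox hrx Q2) (Cx.cong3 hox hrx Q3) (Cx.cong3 hox hrx QD)
      (h.ne2 hinv Q1) (h.ne2 hinv Q2) (h.ne2 hinv Q3) (h.ne2 hinv QD)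
    have := mul_pos hGpos hpos
    rw [hE1] at this
    norm_num at this
  · have h2 := h.le2 hxS hx1 hyS hy1 hxy hinv (by rw [← hq, hq4])
    have hx4 : (Fo (P : Subgroup G) x).card = 4 := by rw [← hq, hq4]
    have hy4 : (Fo (P : Subgroup G) y).card = 4 := by rw [hqy, hq4]
    have cc := fun {t a b : ℤ} (hQ : A6b.Q x y t a b) => h.cong9 hx1 hy1 hxy hx4 hy4 hQ
    have hlow := A6a.num4 hp QD.1 Q1.1 Q2.1 Q3.1 he1 he2 he3 hE0
      (by have := cc Q1; omega) (by have := cc Q2; omega) (by have := cc Q3; omega) (by have := cc QD; omega)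
    have hle : (Nat.card G : ℚ) * (1 / 4) < 162 := by
      refine lt_of_lt_of_le (mul_lt_mul_of_pos_left hlow hGpos) ?_
      rw [hE1]
      have : ((Finset.univ.filter (fun z : G => IsConj x z ∧ IsConj x (z⁻¹ * y))).card : ℚ) ≤ 2 := by exact_mod_cast h2
      linarith
    have hle' : Nat.card G < 648 := by
      have : (Nat.card G : ℚ) < 648 := by linarith
      exact_mod_cast this
    have hf := h.free
    rw [hq4] at hNx
    rw [← hNx] at hf
    have hd := Subgroup.card_subgroup_dvd_card (Subgroup.normalizer ((P : Subgroup G) : Set G))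
    rw [← hNx] at hd
    have hge : 36 ≤ Nat.card G := Nat.le_of_dvd Nat.card_pos hd
    have h36 : Nat.card G ≠ 36 := by
      intro h36
      have h1 : Subgroup.normalizer ((P : Subgroup G) : Set G) = ⊤ := by
        rw [← Subgroup.card_eq_iff_eq_top, ← hNx, h36]
      have h3 : (P : Subgroup G).Normal := Subgroup.normalizer_eq_top_iff.1 h1
      rcases h3.eq_bot_or_eq_top with h4 | h4
      · exact hPbot h4
      · have := h.h9
        rw [h4, Subgroup.card_top, h36] at this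
        omega
    omega

end Cfsg.Agent.H19.A6c
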