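import Mathlib
import Cfsg.Prelude.Def_LocalStructure
import Cfsg.Agent.H4_BaerSuzuki
import Cfsg.Agent.H1_Nilp
import Cfsg.Agent.H19_Inv

/-! Consequences of the Baer–Suzuki theorem (helper19). -/

set_option autoImplicit false

namespace Cfsg.Agent.H19.BS

open Cfsg.Agent.H19.Inv Subgroup

variable {G : Type*} [Group G] [Finite G]

/-- `a` normalises the cyclic group generated by an element it inverts. -/
theorem mem_normalizer_of_inverts {a r : G} (h : a * r * a⁻¹ = r⁻¹) (ha : orderOf a = 2) :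
    a ∈ normalizer (zpowers r : Set G) := by
  have key : ∀ x ∈ zpowers r, a * x * a⁻¹ ∈ zpowers r := by
    intro x hx
    obtain ⟨k, rfl⟩ := mem_zpowers_iff.1 hx
    have : a * r ^ k * a⁻¹ = (a * r * a⁻¹) ^ k := by rw [conj_zpow]
    rw [this, h]
    exact zpow_mem (inv_mem (mem_zpowers r)) k
  rw [mem_normalizer_iff]
  intro x
  refine ⟨key x, fun hx => ?_⟩
  have h2 := key _ hx
  have haa : a * a = 1 := (inv_iff.1 ha).1
  have e : a * (a * x * a⁻¹) * a⁻¹ = x := by
    calc a * (a * x * a⁻¹) * a⁻¹ = (a * a) * x * (a * a)⁻¹ := by group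
      _ = x := by rw [haa]; group
  rwa [e] at h2

/-- An involution outside `O_2(G)` inverts a nontrivial element `w` of odd order with `a w` conjugate to `a`. -/
theorem exists_odd_inverted {a : G} (ha : orderOf a = 2) (hO : a ∉ Cfsg.pCore 2 G) :
    ∃ w : G, w ≠ 1 ∧ Odd (orderOf w) ∧ a * w * a⁻¹ = w⁻¹ ∧ ∃ g : G, g * a * g⁻¹ = a * w := by
  classical
  have : Fact (Nat.Prime 2) := ⟨Nat.prime_two⟩
  have hX : IsPGroup 2 (zpowers a) := by
    rw [IsPGroup.iff_card]; exact ⟨1, by rw [Nat.card_zpowers, ha]; norm_num⟩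
  by_cases hall : ∀ g : G, IsPGroup 2 ↥(zpowers a ⊔ (zpowers a).map (MulAut.conj g).toMonoidHom)
  · exfalso
    obtain ⟨N, hN, hNp, hle⟩ := H4.BaerSuzuki.baer_suzuki (zpowers a) hX hall
    exact hO (H1.Nilp.le_pCore hN hNp (hle (mem_zpowers a)))
  push Not at hall
  obtain ⟨g, hg⟩ := hall
  set b := g * a * g⁻¹ with hb
  have hbo : orderOf b = 2 := by rw [hb, conj_orderOf, ha]
  set r := a * b with hr
  have hinv : a * r * a⁻¹ = r⁻¹ := inverts_mul ha hbo
  obtain ⟨k, m, hm, hkm⟩ := Nat.exists_eq_two_pow_mul_odd (orderOf_pos r).ne'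
  have hm1 : m ≠ 1 := by
    rintro rfl
    apply hg
    have h1 : IsPGroup 2 (zpowers r) := by
      rw [IsPGroup.iff_card]; exact ⟨k, by rw [Nat.card_zpowers, hkm, mul_one]⟩
    have h2 : IsPGroup 2 (zpowers a ⊔ zpowers r : Subgroup G) := by
      apply IsPGroup.to_sup_of_normal_right' hX h1
      rw [zpowers_le]
      exact mem_normalizer_of_inverts hinv ha
    apply h2.to_le
    apply sup_le le_sup_left
    rw [Subgroup.map_le_iff_le_comap, zpowers_le, Subgroup.mem_comap]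
    show g * a * g⁻¹ ∈ _
    have e : g * a * g⁻¹ = a * r := by
      rw [hr, ← mul_assoc, (inv_iff.1 ha).1, one_mul]
    rw [e]
    exact mul_mem (mem_sup_left (mem_zpowers a)) (mem_sup_right (mem_zpowers r))
  refine ⟨r ^ (2 ^ k) * r ^ (2 ^ k), ?_, ?_, ?_, ?_⟩
  · intro h
    rw [← pow_add] at h
    have h1 := orderOf_dvd_of_pow_eq_one h
    rw [hkm] at h1
    have h2 : 2 ^ k + 2 ^ k = 2 ^ k * 2 := by ring
    rw [h2] at h1
    have h3 : m ∣ 2 := Nat.dvd_of_mul_dvd_mul_left (by positivity) h1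
    rcases (Nat.dvd_prime Nat.prime_two).1 h3 with h4 | h4
    · exact hm1 h4
    · rw [h4] at hm; exact absurd hm (by decide)
  · have h1 : orderOf (r ^ (2 ^ k)) = m := by
      rw [orderOf_pow_of_dvd (by positivity) ⟨m, hkm⟩, hkm, Nat.mul_div_cancel_left _ (by positivity)]
    have h2 : orderOf (r ^ (2 ^ k) * r ^ (2 ^ k)) = m := by
      rw [← sq, (Nat.Coprime.orderOf_pow (by rw [h1]; exact (Nat.coprime_two_right.2 hm))), h1]
    rw [h2]; exact hm
  · rw [← pow_add]; exact inverts_pow hinv _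
  · refine ⟨(r ^ (2 ^ k))⁻¹, ?_⟩
    rw [inv_inv, conj_of_inverts (inverts_pow hinv _)]

end Cfsg.Agent.H19.BS
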