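import Mathlib

/-! Extraspecial groups of order 32: counting (helper19). -/

set_option autoImplicit false
set_option linter.unusedSectionVars false

namespace Cfsg.Agent.H19.Ex32

/-- the data of an extraspecial group of order `32` with centre `⟨z⟩` -/
structure Data (Q : Type*) [Group Q] (z : Q) : Prop where
  ne : z ≠ 1
  zz : z * z = 1
  card : Nat.card Q = 32
  sq : ∀ x : Q, x * x = 1 ∨ x * x = z
  comm : ∀ x y : Q, x * y = y * x ∨ x * y = y * x * z
  cent : ∀ x : Q, (∀ y, x * y = y * x) ↔ x = 1 ∨ x = z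

variable {Q : Type*} [Group Q] {z : Q} (D : Data Q z)

namespace Data

include D

theorem zc (x : Q) : z * x = x * z := (D.cent z).2 (Or.inr rfl) x

theorem zc' (x y : Q) : x * z * y = x * y * z := by rw [mul_assoc, D.zc, mul_assoc]

theorem mul_z (x : Q) : x * z * z = x := by rw [mul_assoc, D.zz, mul_one]

theorem z_ne (x : Q) : x * z ≠ x := fun h => D.ne (mul_eq_left.1 h)

theorem zinv : z⁻¹ = z := inv_eq_of_mul_eq_one_right D.zz

theorem comm' {x y : Q} (h : x * y ≠ y * x) : x * y = y * x * z := (D.comm x y).resolve_left h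

theorem sq' {x : Q} (h : x * x ≠ 1) : x * x = z := (D.sq x).resolve_left h

variable [Fintype Q] [DecidableEq Q]

omit D in
/-- the sign of the square -/
def ε (x : Q) : ℤ := if x * x = 1 then 1 else -1
omit D in
/-- the commutator character -/
def χ (x y : Q) : ℤ := if x * y = y * x then 1 else -1

theorem ε_mul (x y : Q) : ε (x * y) = ε x * ε y * χ x y := by
  have hne := D.ne
  have hzz := D.zz
  unfold ε χ
  by_cases hc : x * y = y * x
  · rw [if_pos hc]
    have h1 : x * y * (x * y) = x * x * (y * y) := by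
      calc x * y * (x * y) = x * (y * x) * y := by group
        _ = x * (x * y) * y := by rw [hc]
        _ = _ := by group
    rw [h1]
    by_cases hx : x * x = 1
    · by_cases hy : y * y = 1
      · rw [hx, hy]; simp
      · rw [if_pos hx, if_neg hy, hx, one_mul, if_neg hy]; simp
    · rw [if_neg hx, D.sq' hx]
      by_cases hy : y * y = 1
      · rw [if_pos hy, hy, mul_one, if_neg hne]; simp
      · rw [if_neg hy, D.sq' hy, hzz, if_pos rfl]; simp
  · rw [if_neg hc]
    have hc' := D.comm' (x := y) (y := x) (fun h => hc h.symm)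
    have h1 : x * y * (x * y) = x * x * (y * y) * z := by
      calc x * y * (x * y) = x * (y * x) * y := by group
        _ = x * (x * y * z) * y := by rw [hc']
        _ = x * x * y * (z * y) := by group
        _ = x * x * y * (y * z) := by rw [D.zc y]
        _ = _ := by group
    rw [h1]
    by_cases hx : x * x = 1
    · by_cases hy : y * y = 1
      · rw [if_pos hx, if_pos hy, hx, hy, one_mul, one_mul, if_neg hne]; simp
      · rw [if_pos hx, if_neg hy, hx, D.sq' hy, one_mul, hzz]; simp
    · by_cases hy : y * y = 1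
      · rw [if_neg hx, if_pos hy, D.sq' hx, hy, mul_one, hzz]; simp
      · rw [if_neg hx, if_neg hy, D.sq' hx, D.sq' hy, hzz, one_mul, if_neg hne]; simp

omit D in
theorem χ_comm (x y : Q) : χ x y = χ y x := by
  unfold χ
  by_cases h : x * y = y * x
  · rw [if_pos h, if_pos h.symm]
  · rw [if_neg h, if_neg (fun h' => h h'.symm)]

omit D in
theorem χ_sq (x y : Q) : χ x y * χ x y = 1 := by
  unfold χ; split_ifs <;> simp

omit D in
theorem ε_sq (x : Q) : ε x * ε x = 1 := by
  unfold ε; split_ifs <;> simp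

/-- multiplicativity in the first variable -/
theorem χ_mul (x y w : Q) : χ (x * y) w = χ x w * χ y w := by
  have hne := D.ne
  have hzz := D.zz
  unfold χ
  by_cases hx : x * w = w * x
  · rw [if_pos hx, one_mul]
    have : (x * y * w = w * (x * y)) ↔ y * w = w * y := by
      rw [← mul_assoc w, ← hx, mul_assoc, mul_assoc]
      exact mul_right_inj x
    by_cases hy : y * w = w * y
    · rw [if_pos hy, if_pos (this.2 hy)]
    · rw [if_neg hy, if_neg (fun h => hy (this.1 h))]
  · rw [if_neg hx]
    have hx' : w * x = x * w * z := D.comm' (fun h => hx h.symm)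
    have : (x * y * w = w * (x * y)) ↔ y * w = w * y * z := by
      have e1 : w * (x * y) = x * (w * y * z) := by
        rw [← mul_assoc w, hx', D.zc', mul_assoc, mul_assoc, mul_assoc]
      rw [e1, mul_assoc]
      exact mul_right_inj x
    by_cases hy : y * w = w * y
    · rw [if_pos hy, if_neg (fun h => D.z_ne (w * y) ((this.1 h).symm.trans hy))]; simp
    · rw [if_neg hy, if_pos (this.2 (D.comm' hy))]; simp

/-- character sums -/
theorem sum_χ (w : Q) (hw1 : w ≠ 1) (hwz : w ≠ z) : ∑ x, χ x w = 0 := by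
  have : ¬ ∀ y, w * y = y * w := fun h => by rcases (D.cent w).1 h with h | h <;> contradiction
  push Not at this
  obtain ⟨y, hy⟩ := this
  have h1 : χ y w = -1 := if_neg (fun h => hy h.symm)
  have h2 : ∑ x, χ x w = ∑ x, χ (y * x) w := (Equiv.sum_comp (Equiv.mulLeft y) (fun x => χ x w)).symm
  have h3 : ∑ x, χ (y * x) w = - ∑ x, χ x w := by
    rw [← Finset.sum_neg_distrib]
    apply Finset.sum_congr rfl
    intro x _
    rw [D.χ_mul, h1]; ring
  linarith

theorem sum_χ_one : ∑ x : Q, χ x 1 = 32 := by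
  have h1 : ∀ x : Q, χ x 1 = 1 := fun x => if_pos (by simp)
  rw [Finset.sum_congr rfl (fun x _ => h1 x), Finset.sum_const, Finset.card_univ, ← Nat.card_eq_fintype_card, D.card]
  simp

theorem sum_χ_z : ∑ x : Q, χ x z = 32 := by
  have h1 : ∀ x : Q, χ x z = 1 := fun x => if_pos (D.zc x).symm
  rw [Finset.sum_congr rfl (fun x _ => h1 x), Finset.sum_const, Finset.card_univ, ← Nat.card_eq_fintype_card, D.card]
  simp

omit D in
/-- the total sum -/
def T (Q : Type*) [Group Q] [Fintype Q] [DecidableEq Q] : ℤ := ∑ x : Q, ε x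

theorem T_sq : T Q * T Q = 64 := by
  unfold T
  rw [Finset.sum_mul]
  have h1 : ∀ x : Q, ε x * ∑ y : Q, ε y = ∑ w : Q, ε w * χ x w := by
    intro x
    rw [Finset.mul_sum]
    rw [← Equiv.sum_comp (Equiv.mulLeft x) (fun w => ε w * χ x w)]
    apply Finset.sum_congr rfl
    intro y _
    show ε x * ε y = ε (x * y) * χ x (x * y)
    have h3 : χ x (x * y) = χ x y := by
      rw [χ_comm, D.χ_mul, χ_comm y x]
      have : χ x x = 1 := if_pos rfl
      rw [this, one_mul]
    rw [D.ε_mul, h3]
    have := χ_sq x y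
    linear_combination (- ε x * ε y) * this
  rw [Finset.sum_congr rfl (fun x _ => h1 x), Finset.sum_comm]
  have h2 : ∀ w : Q, ∑ x, ε w * χ x w = if w = 1 then 32 else if w = z then 32 else 0 := by
    intro w
    rw [← Finset.mul_sum]
    by_cases h1 : w = 1
    · rw [h1, D.sum_χ_one, if_pos rfl]; unfold ε; simp
    · rw [if_neg h1]
      by_cases h3 : w = z
      · rw [h3, D.sum_χ_z, if_pos rfl]; unfold ε; rw [if_pos D.zz]; simp
      · rw [if_neg h3, D.sum_χ w h1 h3, mul_zero]
  rw [Finset.sum_congr rfl (fun w _ => h2 w)]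
  have h4 : ∀ w : Q, (if w = 1 then (32 : ℤ) else if w = z then 32 else 0) = (if w = 1 then 32 else 0) + (if w = z then 32 else 0) := by
    intro w
    by_cases h1 : w = 1
    · rw [h1, if_pos rfl, if_pos rfl, if_neg (fun h => D.ne h.symm)]; simp
    · rw [if_neg h1, if_neg h1, zero_add]
  rw [Finset.sum_congr rfl (fun w _ => h4 w), Finset.sum_add_distrib]
  simp

/-- the number of solutions of `x² = 1` -/
theorem card_sq : 2 * (Fintype.card {x : Q // x * x = 1} : ℤ) = 32 + T Q := by
  have h1 : ∀ x : Q, (1 : ℤ) + ε x = if x * x = 1 then 2 else 0 := by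
    intro x; unfold ε; split_ifs <;> norm_num
  have h2 : ∑ x : Q, ((1 : ℤ) + ε x) = 32 + T Q := by
    rw [Finset.sum_add_distrib, Finset.sum_const, Finset.card_univ, ← Nat.card_eq_fintype_card, D.card]
    simp [T]
  rw [← h2, Finset.sum_congr rfl (fun x _ => h1 x), ← Finset.sum_filter, Finset.sum_const, Fintype.card_subtype]
  simp [mul_comm]

theorem card_cases : Fintype.card {x : Q // x * x = 1} = 12 ∧ T Q = -8 ∨ Fintype.card {x : Q // x * x = 1} = 20 ∧ T Q = 8 := by
  have h1 := D.T_sq
  have h2 := D.card_sq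
  have h3 : (T Q - 8) * (T Q + 8) = 0 := by linear_combination h1
  rcases mul_eq_zero.1 h3 with h | h
  · right
    constructor
    · have : T Q = 8 := by linarith
      rw [this] at h2
      omega
    · linarith
  · left
    constructor
    · have : T Q = -8 := by linarith
      rw [this] at h2
      omega
    · linarith

/-- in the minus case, the singular points are pairwise non-perpendicular -/
theorem card_cent_sq (hT : T Q = -8) {x : Q} (hx : x * x = 1) (hx1 : x ≠ 1) (hxz : x ≠ z) :
    Fintype.card {y : Q // y * y = 1 ∧ x * y = y * x} = 4 := by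
  have h1 : ∀ y : Q, ((1 : ℤ) + ε y) * (1 + χ x y) = if (y * y = 1 ∧ x * y = y * x) then 4 else 0 := by
    intro y; unfold ε χ
    by_cases h : y * y = 1
    · by_cases h' : x * y = y * x
      · rw [if_pos h, if_pos h', if_pos ⟨h, h'⟩]; norm_num
      · rw [if_pos h, if_neg h', if_neg (fun h'' : y * y = 1 ∧ x * y = y * x => h' h''.2)]; norm_num
    · rw [if_neg h, if_neg (fun h'' : y * y = 1 ∧ x * y = y * x => h h''.1)]; norm_num
  have h2 : ∀ y : Q, ((1 : ℤ) + ε y) * (1 + χ x y) = 1 + ε y + χ y x + ε (x * y) := by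
    intro y
    rw [D.ε_mul]
    have h3 : ε x = 1 := if_pos hx
    rw [h3, χ_comm y x]; ring
  have h3 : ∑ y : Q, ((1 : ℤ) + ε y) * (1 + χ x y) = 16 := by
    rw [Finset.sum_congr rfl (fun y _ => h2 y), Finset.sum_add_distrib, Finset.sum_add_distrib, Finset.sum_add_distrib,
      D.sum_χ x hx1 hxz, show ∑ y : Q, ε (x * y) = ∑ y : Q, ε y from Equiv.sum_comp (Equiv.mulLeft x) (fun w => ε w), Finset.sum_const, Finset.card_univ,
      ← Nat.card_eq_fintype_card, D.card]
    have : ∑ y : Q, ε y = -8 := hT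
    rw [this]; simp
  rw [Finset.sum_congr rfl (fun y _ => h1 y), ← Finset.sum_filter, Finset.sum_const] at h3
  rw [Fintype.card_subtype]
  simp at h3
  omega

omit [Fintype Q] [DecidableEq Q] in
theorem nonperp [Finite Q] (h12 : Nat.card {x : Q // x * x = 1} = 12) {x y : Q} (hx : x * x = 1) (hx1 : x ≠ 1) (hxz : x ≠ z)
    (hy : y * y = 1) (hxy : x * y = y * x) : y = 1 ∨ y = z ∨ y = x ∨ y = x * z := by
  classical
  haveI := Fintype.ofFinite Q
  have hT : T Q = -8 := by
    rcases D.card_cases with h | h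
    · exact h.2
    · rw [Nat.card_eq_fintype_card, h.1] at h12; omega
  have h4 := D.card_cent_sq hT hx hx1 hxz
  rw [Fintype.card_subtype] at h4
  have hsub : ({1, z, x, x * z} : Finset Q) ⊆ Finset.univ.filter (fun y => y * y = 1 ∧ x * y = y * x) := by
    intro w hw
    simp only [Finset.mem_insert, Finset.mem_singleton] at hw
    rw [Finset.mem_filter]
    refine ⟨Finset.mem_univ _, ?_⟩
    rcases hw with rfl | rfl | rfl | rfl
    · simp
    · exact ⟨D.zz, (D.zc x).symm⟩
    · exact ⟨hx, rfl⟩
    · constructor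
      · rw [← mul_assoc, D.zc', hx, one_mul, D.zz]
      · rw [D.zc', mul_assoc]
  have hcard : ({1, z, x, x * z} : Finset Q).card = 4 := by
    have e1 : (1 : Q) ≠ z := fun h => D.ne h.symm
    have e2 : (1 : Q) ≠ x * z := by
      intro h
      apply hxz
      have := congrArg (· * z) h
      simp only [D.mul_z, one_mul] at this
      exact this.symm
    have e3 : z ≠ x * z := fun h => hx1 (right_eq_mul.1 h)
    rw [Finset.card_insert_of_notMem, Finset.card_insert_of_notMem, Finset.card_insert_of_notMem, Finset.card_singleton]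
    · rw [Finset.mem_singleton]; exact fun h => D.z_ne x h.symm
    · simp only [Finset.mem_insert, Finset.mem_singleton, not_or]; exact ⟨fun h => hxz h.symm, e3⟩
    · simp only [Finset.mem_insert, Finset.mem_singleton, not_or]; exact ⟨e1, fun h => hx1 h.symm, e2⟩
  have heq := Finset.eq_of_subset_of_card_le hsub (by rw [h4, hcard])
  have hmem : y ∈ Finset.univ.filter (fun y => y * y = 1 ∧ x * y = y * x) := Finset.mem_filter.2 ⟨Finset.mem_univ _, hy, hxy⟩
  rw [← heq] at hmem
  simpa using hmem

omit [Fintype Q] [DecidableEq Q] in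
theorem mem_center {x : Q} : x ∈ Subgroup.center Q ↔ x = 1 ∨ x = z := by
  rw [Subgroup.mem_center_iff, ← D.cent]
  exact ⟨fun h y => (h y).symm, fun h y => (h y).symm⟩

omit [Fintype Q] [DecidableEq Q] in
theorem card_center : Nat.card (Subgroup.center Q) = 2 := by
  have h : ((Subgroup.center Q : Subgroup Q) : Set Q) = {1, z} := by
    ext x; simp only [SetLike.mem_coe, D.mem_center, Set.mem_insert_iff, Set.mem_singleton_iff]
  have : Nat.card ((Subgroup.center Q : Subgroup Q) : Set Q) = 2 := by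
    rw [h, Nat.card_coe_set_eq, Set.ncard_pair (fun h => D.ne h.symm)]
  exact this

omit [Fintype Q] [DecidableEq Q] in
theorem ge8 [Finite Q] (φ : MulAut Q) (hφ : ∀ x, φ (φ x) = x) (C : Subgroup Q) (hC : ∀ x, x ∈ C ↔ φ x = x ∨ φ x = x * z)
    (hzC : φ z = z) : 8 ≤ Nat.card C := by
  have hZC : Subgroup.center Q ≤ C := by
    intro x hx
    rcases D.mem_center.1 hx with hx1 | hx1
    · rw [hx1]; exact C.one_mem
    · rw [hx1, hC]; exact Or.inl hzC
  have hcommq : ∀ x y : Q, (QuotientGroup.mk (x * y) : Q ⧸ Subgroup.center Q) = QuotientGroup.mk (y * x) := by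
    intro x y
    rw [QuotientGroup.eq]
    rcases D.comm x y with h | h
    · rw [h, inv_mul_cancel]; exact Subgroup.one_mem _
    · rw [h]
      have : (y * x * z)⁻¹ * (y * x) = z := by
        rw [mul_inv_rev, D.zinv, mul_assoc, inv_mul_cancel, mul_one]
      rw [this]; exact D.mem_center.2 (Or.inr rfl)
  let δ : Q →* Q ⧸ Subgroup.center Q := MonoidHom.mk' (fun x => QuotientGroup.mk (x⁻¹ * φ x)) (by
    intro x y
    show (QuotientGroup.mk ((x * y)⁻¹ * φ (x * y)) : Q ⧸ Subgroup.center Q) = QuotientGroup.mk (x⁻¹ * φ x) * QuotientGroup.mk (y⁻¹ * φ y)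
    rw [map_mul]
    have e1 : (x * y)⁻¹ * (φ x * φ y) = y⁻¹ * (x⁻¹ * φ x * φ y) := by group
    rw [e1, hcommq, ← QuotientGroup.mk_mul]
    have e2 : x⁻¹ * φ x * φ y * y⁻¹ = x⁻¹ * φ x * (φ y * y⁻¹) := by group
    rw [e2, QuotientGroup.mk_mul, hcommq (φ y), ← QuotientGroup.mk_mul])
  have hδ : ∀ x, δ x = QuotientGroup.mk (x⁻¹ * φ x) := fun x => rfl
  have hker : δ.ker = C := by
    ext x
    rw [MonoidHom.mem_ker, hδ, QuotientGroup.eq_one_iff, D.mem_center, hC]
    constructor
    · rintro (h | h)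
      · left; exact (inv_mul_eq_one.1 h).symm
      · right; rw [← h, mul_inv_cancel_left]
    · rintro (h | h)
      · left; rw [h, inv_mul_cancel]
      · right; rw [h, inv_mul_cancel_left]
  have hle : δ.range ≤ C.map (QuotientGroup.mk' (Subgroup.center Q)) := by
    rintro _ ⟨x, rfl⟩
    refine ⟨x⁻¹ * φ x, ?_, rfl⟩
    have h1 : φ (x⁻¹ * φ x) = (x⁻¹ * φ x)⁻¹ := by rw [map_mul, map_inv, hφ]; group
    show x⁻¹ * φ x ∈ C
    rw [hC, h1]
    rcases D.sq (x⁻¹ * φ x) with h | h
    · left; exact inv_eq_of_mul_eq_one_right h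
    · right
      rw [inv_eq_iff_mul_eq_one, ← mul_assoc, h, D.zz]
  have hQ16 : Nat.card (Q ⧸ Subgroup.center Q) = 16 := by
    have h1 := Subgroup.card_mul_index (Subgroup.center Q)
    rw [D.card_center, D.card] at h1
    show (Subgroup.center Q).index = 16
    omega
  have h1 : (C.map (QuotientGroup.mk' (Subgroup.center Q))).index = C.index :=
    Subgroup.index_map_eq C (QuotientGroup.mk'_surjective _) (by rw [QuotientGroup.ker_mk']; exact hZC)
  have h3 := Subgroup.card_mul_index (C.map (QuotientGroup.mk' (Subgroup.center Q)))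
  rw [h1, hQ16] at h3
  have h5 := Subgroup.card_le_of_le hle
  rw [← Subgroup.index_ker, hker] at h5
  have h6 := Subgroup.card_mul_index C
  rw [D.card] at h6
  -- index² ≤ 16
  obtain ⟨i, hi⟩ : ∃ i, i = C.index := ⟨_, rfl⟩
  obtain ⟨m, hm⟩ : ∃ m, m = Nat.card (C.map (QuotientGroup.mk' (Subgroup.center Q))) := ⟨_, rfl⟩
  rw [← hi] at h3 h5 h6
  rw [← hm] at h3 h5
  have h7 : i ≤ 4 := by nlinarith
  nlinarith

omit [Fintype Q] [DecidableEq Q] in
/-- an involutive automorphism with small centralizer modulo the centre inverts that centralizer -/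
theorem inverts [Finite Q] (φ : MulAut Q) (hφ : ∀ x, φ (φ x) = x) (C : Subgroup Q) (hC : ∀ x, x ∈ C ↔ φ x = x ∨ φ x = x * z)
    (h8 : Nat.card C = 8) : ∀ x ∈ C, φ x = x⁻¹ := by
  have hZC : Subgroup.center Q ≤ C := by
    intro x hx
    rcases D.mem_center.1 hx with hx1 | hx1
    · rw [hx1]; exact C.one_mem
    · rw [hx1] at hx ⊢
      rw [hC]
      have h1 : φ z ∈ Subgroup.center Q := by
        rw [Subgroup.mem_center_iff]
        intro g
        have := (Subgroup.mem_center_iff.1 hx) (φ g)
        have h3 := congrArg φ this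
        rw [map_mul, map_mul, hφ] at h3
        exact h3
      rcases D.mem_center.1 h1 with h3 | h3
      · exact absurd (φ.injective (h3.trans (map_one φ).symm)) D.ne
      · exact Or.inl h3
  have hcommq : ∀ x y : Q, (QuotientGroup.mk (x * y) : Q ⧸ Subgroup.center Q) = QuotientGroup.mk (y * x) := by
    intro x y
    rw [QuotientGroup.eq]
    rcases D.comm x y with h | h
    · rw [h, inv_mul_cancel]; exact Subgroup.one_mem _
    · rw [h]
      have : (y * x * z)⁻¹ * (y * x) = z := by
        rw [mul_inv_rev, D.zinv, mul_assoc, inv_mul_cancel, mul_one]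
      rw [this]; exact D.mem_center.2 (Or.inr rfl)
  let δ : Q →* Q ⧸ Subgroup.center Q := MonoidHom.mk' (fun x => QuotientGroup.mk (x⁻¹ * φ x)) (by
    intro x y
    show (QuotientGroup.mk ((x * y)⁻¹ * φ (x * y)) : Q ⧸ Subgroup.center Q) = QuotientGroup.mk (x⁻¹ * φ x) * QuotientGroup.mk (y⁻¹ * φ y)
    rw [map_mul]
    have e1 : (x * y)⁻¹ * (φ x * φ y) = y⁻¹ * (x⁻¹ * φ x * φ y) := by group
    rw [e1, hcommq, ← QuotientGroup.mk_mul]
    have e2 : x⁻¹ * φ x * φ y * y⁻¹ = x⁻¹ * φ x * (φ y * y⁻¹) := by group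
    rw [e2, QuotientGroup.mk_mul, hcommq (φ y), ← QuotientGroup.mk_mul])
  have hδ : ∀ x, δ x = QuotientGroup.mk (x⁻¹ * φ x) := fun x => rfl
  have hker : δ.ker = C := by
    ext x
    rw [MonoidHom.mem_ker, hδ, QuotientGroup.eq_one_iff, D.mem_center, hC]
    constructor
    · rintro (h | h)
      · left; exact (inv_mul_eq_one.1 h).symm
      · right; rw [← h, mul_inv_cancel_left]
    · rintro (h | h)
      · left; rw [h, inv_mul_cancel]
      · right; rw [h, inv_mul_cancel_left]
  have hle : δ.range ≤ C.map (QuotientGroup.mk' (Subgroup.center Q)) := by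
    rintro _ ⟨x, rfl⟩
    refine ⟨x⁻¹ * φ x, ?_, rfl⟩
    have h1 : φ (x⁻¹ * φ x) = (x⁻¹ * φ x)⁻¹ := by rw [map_mul, map_inv, hφ]; group
    show x⁻¹ * φ x ∈ C
    rw [hC, h1]
    rcases D.sq (x⁻¹ * φ x) with h | h
    · left; exact inv_eq_of_mul_eq_one_right h
    · right
      rw [inv_eq_iff_mul_eq_one, ← mul_assoc, h, D.zz]
  have hQ16 : Nat.card (Q ⧸ Subgroup.center Q) = 16 := by
    have h1 := Subgroup.card_mul_index (Subgroup.center Q)
    rw [D.card_center, D.card] at h1
    show (Subgroup.center Q).index = 16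
    omega
  have hCi : C.index = 4 := by
    have h1 := Subgroup.card_mul_index C
    rw [h8, D.card] at h1; omega
  have hr : Nat.card δ.range = 4 := by rw [← Subgroup.index_ker, hker, hCi]
  have hm : Nat.card (C.map (QuotientGroup.mk' (Subgroup.center Q))) = 4 := by
    have h1 : (C.map (QuotientGroup.mk' (Subgroup.center Q))).index = C.index :=
      Subgroup.index_map_eq C (QuotientGroup.mk'_surjective _) (by rw [QuotientGroup.ker_mk']; exact hZC)
    have h3 := Subgroup.card_mul_index (C.map (QuotientGroup.mk' (Subgroup.center Q)))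
    rw [h1, hCi, hQ16] at h3; omega
  have heq : δ.range = C.map (QuotientGroup.mk' (Subgroup.center Q)) := Subgroup.eq_of_le_of_card_ge hle (by rw [hr, hm])
  intro y hy
  have h1 : (QuotientGroup.mk' (Subgroup.center Q)) y ∈ C.map (QuotientGroup.mk' (Subgroup.center Q)) := ⟨y, hy, rfl⟩
  rw [← heq] at h1
  obtain ⟨x, hx⟩ := h1
  have h2 : (QuotientGroup.mk (x⁻¹ * φ x) : Q ⧸ Subgroup.center Q) = QuotientGroup.mk y := hx
  rw [QuotientGroup.eq, D.mem_center] at h2
  have h3 : φ (x⁻¹ * φ x) = (x⁻¹ * φ x)⁻¹ := by rw [map_mul, map_inv, hφ]; group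
  have hφz : φ z = z := by
    have := (hC z).1 (hZC (D.mem_center.2 (Or.inr rfl)))
    rcases this with h | h
    · exact h
    · rw [D.zz] at h; exact absurd (φ.injective (h.trans (map_one φ).symm)) D.ne
  rcases h2 with h | h
  · have h4 : y = x⁻¹ * φ x := (inv_mul_eq_one.1 h).symm
    rw [h4, h3]
  · have h4 : y = x⁻¹ * φ x * z := by rw [← h, mul_inv_cancel_left]
    rw [h4, map_mul, h3, hφz, mul_inv_rev (x⁻¹ * φ x) z, D.zinv, D.zc]

omit [Fintype Q] [DecidableEq Q] in
theorem card_fix [Finite Q] (h12 : Nat.card {x : Q // x * x = 1} = 12) (φ : MulAut Q) (hφ : ∀ x, φ (φ x) = x) (C : Subgroup Q)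
    (hC : ∀ x, x ∈ C ↔ φ x = x ∨ φ x = x * z) (h8 : Nat.card C = 8) :
    Nat.card {x : Q // φ x = x} = 4 ∧ ∀ x, φ x = x → x * x = 1 := by
  have hinv := D.inverts φ hφ C hC h8
  have hfix : ∀ x, φ x = x ↔ x ∈ C ∧ x * x = 1 := by
    intro x
    constructor
    · intro h
      have hx : x ∈ C := (hC x).2 (Or.inl h)
      refine ⟨hx, ?_⟩
      have := hinv x hx
      rw [h] at this
      nth_rewrite 2 [this]
      exact mul_inv_cancel x
    · rintro ⟨hx, hxx⟩
      rw [hinv x hx]
      exact inv_eq_of_mul_eq_one_right hxx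
  refine ⟨?_, fun x hx => ((hfix x).1 hx).2⟩
  -- C is commutative
  have hcomm : ∀ x ∈ C, ∀ y ∈ C, x * y = y * x := by
    intro x hx y hy
    have h1 := hinv (x * y) (C.mul_mem hx hy)
    rw [map_mul, hinv x hx, hinv y hy, mul_inv_rev] at h1
    have h2 := congrArg (·⁻¹) h1
    simp only [mul_inv_rev, inv_inv] at h2
    exact h2.symm
  -- the squaring map
  let s : C →* Q := MonoidHom.mk' (fun x => (x : Q) * x) (by
    intro x y
    show ((x * y : C) : Q) * ((x * y : C) : Q) = (x : Q) * x * (y * y)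
    rw [Subgroup.coe_mul]
    calc (x : Q) * y * (x * y) = x * (y * x) * y := by group
      _ = x * (x * y) * y := by rw [hcomm y y.2 x x.2]
      _ = _ := by group)
  have hs : ∀ x, s x = (x : Q) * x := fun x => rfl
  have hrange : s.range ≤ Subgroup.center Q := by
    rintro _ ⟨x, rfl⟩
    rw [hs, D.mem_center]; exact D.sq x
  have hr2 : Nat.card s.range ∣ 2 := by rw [← D.card_center]; exact Subgroup.card_dvd_of_le hrange
  have hk : Nat.card s.ker * Nat.card s.range = 8 := by
    rw [← Subgroup.index_ker, Subgroup.card_mul_index, h8]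
  -- the equivalence with the kernel
  have hcard : Nat.card {x : Q // φ x = x} = Nat.card s.ker := by
    apply Nat.card_congr
    refine ⟨fun x => ⟨⟨x.1, ((hfix x.1).1 x.2).1⟩, ((hfix x.1).1 x.2).2⟩, fun x => ⟨x.1.1, (hfix _).2 ⟨x.1.2, x.2⟩⟩, fun x => rfl, fun x => rfl⟩
  rw [hcard]
  have hge : 4 ≤ Nat.card s.ker := by
    have h3 : Nat.card s.range ≤ 2 := Nat.le_of_dvd (by norm_num) hr2
    nlinarith
  have hle : Nat.card s.ker ≤ 4 := by
    by_cases hall : ∀ x : s.ker, ((x : C) : Q) = 1 ∨ ((x : C) : Q) = z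
    · have h1 : Nat.card s.ker ≤ Nat.card (Subgroup.center Q) := by
        apply Nat.card_le_card_of_injective (fun x : s.ker => (⟨((x : C) : Q), D.mem_center.2 (hall x)⟩ : Subgroup.center Q))
        intro x y hxy
        have hxy' : ((x : C) : Q) = ((y : C) : Q) := congrArg (fun w : Subgroup.center Q => (w : Q)) hxy
        exact Subtype.ext (Subtype.ext hxy')
      rw [D.card_center] at h1
      omega
    · push Not at hall
      obtain ⟨x, hx1, hxz⟩ := hall
      have hxx : ((x : C) : Q) * x = 1 := x.2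
      have h1 : ∀ y : s.ker, ((y : C) : Q) = 1 ∨ ((y : C) : Q) = z ∨ ((y : C) : Q) = ((x : C) : Q) ∨ ((y : C) : Q) = ((x : C) : Q) * z :=
        fun y => D.nonperp h12 hxx hx1 hxz y.2 (hcomm _ x.1.2 _ y.1.2)
      have h2 : (Set.range (fun y : s.ker => ((y : C) : Q))) ⊆ (({1, z, ((x : C) : Q), ((x : C) : Q) * z} : Set Q)) := by
        rintro _ ⟨y, rfl⟩
        simp only [Set.mem_insert_iff, Set.mem_singleton_iff]
        exact h1 y
      have h3 : Nat.card s.ker = (Set.range (fun y : s.ker => ((y : C) : Q))).ncard := by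
        rw [← Nat.card_coe_set_eq]
        exact (Nat.card_range_of_injective (fun a b h => Subtype.ext (Subtype.ext h))).symm
      rw [h3]
      refine (Set.ncard_le_ncard h2 (Set.toFinite _)).trans ?_
      refine (Set.ncard_insert_le _ _).trans ?_
      have h4 : ({z, ((x : C) : Q), ((x : C) : Q) * z} : Set Q).ncard ≤ 3 := by
        refine (Set.ncard_insert_le _ _).trans ?_
        have : ({((x : C) : Q), ((x : C) : Q) * z} : Set Q).ncard ≤ 2 := by
          refine (Set.ncard_insert_le _ _).trans ?_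
          rw [Set.ncard_singleton]
        omega
      omega
  omega

end Data

end Cfsg.Agent.H19.Ex32
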