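import Mathlib
import Cfsg.Agent.H19_Rank1
import Cfsg.Agent.H11_Conn2
import Cfsg.Agent.H23_PBasic

/-!
A noncyclic normal abelian subgroup of a p-group contains a useful subgroup of order `p²`.
-/

set_option autoImplicit false
open Cfsg

namespace Cfsg.Agent.H19.Impr

open Subgroup

variable {G : Type*} [Group G]

theorem exists_sq [Finite G] {p : ℕ} [hp : Fact p.Prime] (hG : IsPGroup p G) {A : Subgroup G} (hAn : A.Normal)
    (hAc : IsMulCommutative A) (hA : ¬ IsCyclic A) :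
    ∃ U : Subgroup G, U ≤ A ∧ U.Normal ∧ IsElementaryAbelian p U ∧ Nat.card U = p ^ 2 := by
  classical
  have hcomm : ∀ x ∈ A, ∀ y ∈ A, x * y = y * x := fun x hx y hy =>
    congrArg Subtype.val (hAc.is_comm.comm (⟨x, hx⟩ : A) ⟨y, hy⟩)
  let O : Subgroup G :=
    { carrier := {x | x ∈ A ∧ x ^ p = 1}
      one_mem' := ⟨one_mem _, one_pow _⟩
      inv_mem' := by
        rintro x ⟨h1, h2⟩
        exact ⟨inv_mem h1, by rw [inv_pow, h2, inv_one]⟩
      mul_mem' := by
        rintro x y ⟨hx, hx2⟩ ⟨hy, hy2⟩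
        exact ⟨mul_mem hx hy, by rw [(show Commute x y from hcomm x hx y hy).mul_pow, hx2, hy2, one_mul]⟩ }
  have hOn : O.Normal := by
    constructor
    rintro x ⟨hx, hx2⟩ g
    refine ⟨hAn.conj_mem _ hx g, ?_⟩
    rw [conj_pow, hx2]; group
  have hOA : O ≤ A := fun x hx => hx.1
  have hOe : IsElementaryAbelian p O := by
    refine ⟨⟨⟨fun x y => ?_⟩⟩, fun a ha => ha.2⟩
    exact Subtype.ext (hcomm _ x.2.1 _ y.2.1)
  have hlt : p < Nat.card O := by
    by_contra hcon
    push Not at hcon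
    apply hA
    apply Cfsg.Agent.H23.PBasic.cyclic_of_card_le _ A rfl (hG.to_subgroup A) (Or.inr (fun a b => hAc.is_comm.comm a b))
    refine le_trans (le_of_eq ?_) hcon
    apply Nat.card_congr
    refine ⟨fun x => ⟨x.1, x.1.2, congrArg Subtype.val x.2⟩, fun x => ⟨⟨x.1, x.2.1⟩, Subtype.ext x.2.2⟩, ?_, ?_⟩
    · intro x; rfl
    · intro x; rfl
  obtain ⟨U, hUO, hUn, hUe, hUc⟩ := Cfsg.Agent.H11.Conn.exists_normal_sq hG hOn hOe hlt
  exact ⟨U, hUO.trans hOA, hUn, hUe, hUc⟩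

/-- `z, a` with `z` central -/
theorem exists_za [Finite G] {p : ℕ} [hp : Fact p.Prime] (hG : IsPGroup p G) {U : Subgroup G} (hUn : U.Normal)
    (hUe : IsElementaryAbelian p U) (hUc : Nat.card U = p ^ 2) :
    ∃ z a : G, z ∈ U ∧ a ∈ U ∧ orderOf z = p ∧ orderOf a = p ∧ a ∉ zpowers z ∧ (∀ g, g * z = z * g) ∧
      a * z = z * a ∧ ∀ g : G, g * a * g⁻¹ * a⁻¹ ∈ zpowers z := by
  classical
  have hU1 : U ≠ ⊥ := by
    rintro rfl
    rw [card_bot] at hUc
    exact (Nat.one_lt_pow (by norm_num) hp.out.one_lt).ne hUc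
  have h1 := Cfsg.Agent.H2.PGroup.inf_center_ne_bot hG hU1
  obtain ⟨z, hz, hz1⟩ := ((Subgroup.bot_or_exists_ne_one (U ⊓ center G)).resolve_left h1)
  have hzc : ∀ g, g * z = z * g := fun g => mem_center_iff.1 hz.2 g
  have hzo : orderOf z = p := orderOf_eq_prime (hUe.2 z hz.1) hz1
  have hZU : zpowers z ≤ U := by rw [zpowers_le]; exact hz.1
  have hcZ : Nat.card (zpowers z) = p := by rw [Nat.card_zpowers, hzo]
  have hex : ∃ a ∈ U, a ∉ zpowers z := by
    by_contra hcon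
    push Not at hcon
    have h2 : U ≤ zpowers z := fun x hx => hcon x hx
    have h3 := Subgroup.card_le_of_le h2
    rw [hcZ, hUc] at h3
    have := hp.out.one_lt
    nlinarith
  obtain ⟨a, haU, haz⟩ := hex
  have ha1 : a ≠ 1 := by rintro rfl; exact haz (one_mem _)
  have hao : orderOf a = p := orderOf_eq_prime (hUe.2 a haU) ha1
  have haz' : a * z = z * a := congrArg Subtype.val (hUe.1.is_comm.comm (⟨a, haU⟩ : U) ⟨z, hz.1⟩)
  refine ⟨z, a, hz.1, haU, hzo, hao, haz, hzc, haz', ?_⟩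
  have hZn : (zpowers z).Normal := by
    constructor
    rintro x ⟨i, rfl⟩ g
    change g * z ^ i * g⁻¹ ∈ zpowers z
    have h2 : Commute g (z ^ i) := (show Commute g z from hzc g).zpow_right i
    rw [h2.eq, mul_inv_cancel_right]
    exact ⟨i, rfl⟩
  have hrel : (zpowers z).relIndex U = p := by
    have h2 := relIndex_mul_relIndex _ _ _ (bot_le (a := zpowers z)) hZU
    rw [relIndex_bot_left, relIndex_bot_left, hcZ, hUc, sq] at h2
    exact Nat.eq_of_mul_eq_mul_left hp.out.pos h2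
  have hcard : Nat.card (U.map (QuotientGroup.mk' (zpowers z))) ≤ p := by
    rw [← Subgroup.relIndex_ker, QuotientGroup.ker_mk', hrel]
  have hcen := Cfsg.Agent.H2.Rank2.le_center_of_card_le (hG.to_quotient (zpowers z))
    (hUn.map (QuotientGroup.mk' (zpowers z)) (QuotientGroup.mk'_surjective _)) hcard
  intro g
  have h2 := mem_center_iff.1 (hcen ⟨a, haU, rfl⟩) (g : G ⧸ zpowers z)
  rw [← QuotientGroup.eq_one_iff]
  simp only [QuotientGroup.mk_mul, QuotientGroup.mk_inv]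
  change (g : G ⧸ zpowers z) * (a : G ⧸ zpowers z) = (a : G ⧸ zpowers z) * (g : G ⧸ zpowers z) at h2
  rw [h2]; group

end Cfsg.Agent.H19.Impr
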