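import Mathlib
import Cfsg.Agent.H19_Ex32

/-! The involution centralizer `2^{1+4}_- : A5`: counting pairs of involutions (helper19). -/

set_option autoImplicit false
set_option linter.unusedSectionVars false

namespace Cfsg.Agent.H19.J2

open Cfsg.Agent.H19.Ex32

set_option maxRecDepth 100000 in
theorem a5_inv : Fintype.card {a : alternatingGroup (Fin 5) // a * a = 1 ∧ a ≠ 1} = 15 := by decide +kernel
set_option maxRecDepth 100000 in
theorem a5_five : ∀ a : alternatingGroup (Fin 5), a * a = 1 → a ≠ 1 →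
    ∃ b : alternatingGroup (Fin 5), b * b = 1 ∧ b ≠ 1 ∧ (a * b) ^ 5 = 1 ∧ a * b ≠ 1 := by decide +kernel
set_option maxRecDepth 100000 in
theorem a5_odd : ∀ a : alternatingGroup (Fin 5), a * a = 1 → a ≠ 1 →
    Fintype.card {b : alternatingGroup (Fin 5) // b * b = 1 ∧ (a * b) ^ 15 = 1} = 13 := by decide +kernel

/-- fixed points of a permutation of order dividing `5` -/
theorem fix_mod {α : Type*} [Finite α] (σ : Equiv.Perm α) (h : σ ^ 5 = 1) : Nat.card α ≡ Nat.card {x // σ x = x} [MOD 5] := by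
  classical
  haveI := Fintype.ofFinite α
  haveI : Fact (Nat.Prime 5) := ⟨by norm_num⟩
  let f : Function.End α := fun x => σ x
  have hf : ∀ n : ℕ, f ^ n = fun x => (σ ^ n) x := by
    intro n
    induction n with
    | zero => rfl
    | succ n ih => rw [pow_succ, ih]; funext x; rw [pow_succ]; rfl
  have h1 := Equiv.Perm.card_fixedPoints_modEq (f := f) (p := 5) (n := 1) (by
    rw [pow_one, hf, h]; rfl)
  rw [Nat.card_eq_fintype_card]
  have h2 : Nat.card {x // σ x = x} = Fintype.card (Function.fixedPoints f) := by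
    rw [← Nat.card_eq_fintype_card]
    rfl
  rw [h2]
  convert h1

section
variable {H : Type*} [Group H] [Finite H] (Q K : Subgroup H) [Q.Normal] (z : H) (hzQ : z ∈ Q) (D : Data Q (⟨z, hzQ⟩ : Q))
  (hz : ∀ h, h * z = z * h)
include D hz

/-- the centralizer of `h` modulo `⟨z⟩` -/
def Ct (h : H) : Subgroup Q where
  carrier := {x | (MulAut.conjNormal h : MulAut Q) x = x ∨ (MulAut.conjNormal h : MulAut Q) x = x * ⟨z, hzQ⟩}
  mul_mem' := by
    rintro x y (hx | hx) (hy | hy)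
    · left; rw [map_mul, hx, hy]
    · right; rw [map_mul, hx, hy, mul_assoc]
    · right; rw [map_mul, hx, hy, D.zc']
    · left; rw [map_mul, hx, hy, D.zc', ← mul_assoc, D.mul_z]
  one_mem' := Or.inl (map_one _)
  inv_mem' := by
    rintro x (hx | hx)
    · left; rw [map_inv, hx]
    · right; rw [map_inv, hx, mul_inv_rev, D.zinv, D.zc]

theorem mem_Ct (h : H) (x : Q) : x ∈ Ct Q z hzQ D h ↔
    (MulAut.conjNormal h : MulAut Q) x = x ∨ (MulAut.conjNormal h : MulAut Q) x = x * ⟨z, hzQ⟩ := Iff.rfl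

theorem conj_z (h : H) : (MulAut.conjNormal h : MulAut Q) ⟨z, hzQ⟩ = ⟨z, hzQ⟩ := by
  apply Subtype.ext
  rw [MulAut.conjNormal_apply]
  show h * z * h⁻¹ = z
  rw [hz, mul_inv_cancel_right]

theorem centralizer_of_five (hnc : ¬ ∀ k ∈ K, ∀ x ∈ Q, k * x = x * k) (e : K ≃* alternatingGroup (Fin 5)) (g : H) (hgK : g ∈ K)
    (hg5 : g ^ 5 = 1) (hg1 : g ≠ 1) (x : Q) (hx : (MulAut.conjNormal g : MulAut Q) x = x) : x = 1 ∨ x = ⟨z, hzQ⟩ := by
  haveI : IsSimpleGroup (alternatingGroup (Fin 5)) := alternatingGroup.isSimpleGroup (by simp)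
  haveI : Nontrivial K := e.toEquiv.nontrivial
  haveI : IsSimpleGroup K := IsSimpleGroup.isSimpleGroup_of_surjective (f := e.symm.toMonoidHom) e.symm.surjective
  let φ : MulAut Q := MulAut.conjNormal g
  have hφ5 : φ ^ 5 = 1 := by
    show (MulAut.conjNormal g : MulAut Q) ^ 5 = 1
    rw [← map_pow, hg5, map_one]
  let C : Subgroup Q :=
    { carrier := {x | φ x = x}
      mul_mem' := by
        intro x y hx hy
        show φ (x * y) = x * y
        rw [map_mul, show φ x = x from hx, show φ y = y from hy]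
      one_mem' := map_one φ
      inv_mem' := by
        intro x hx
        show φ x⁻¹ = x⁻¹
        rw [map_inv, show φ x = x from hx] }
  have hmod : Nat.card Q ≡ Nat.card C [MOD 5] := by
    refine fix_mod (MulAut.toPerm Q φ) ?_
    rw [← map_pow, hφ5, map_one]
  have hdvd : Nat.card C ∣ 32 := by rw [← D.card]; exact Subgroup.card_subgroup_dvd_card C
  rw [D.card] at hmod
  have hcases : Nat.card C = 2 ∨ Nat.card C = 32 := by
    have h32 : (32 : ℕ) = 2 ^ 5 := by norm_num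
    rw [h32] at hdvd
    obtain ⟨k, hk, hk'⟩ := (Nat.dvd_prime_pow Nat.prime_two).1 hdvd
    rw [hk'] at hmod ⊢
    interval_cases k <;> simp_all [Nat.ModEq]
  rcases hcases with hC | hC
  · have hle : Subgroup.center Q ≤ C := by
      intro y hy
      rcases D.mem_center.1 hy with h | h
      · rw [h]; exact C.one_mem
      · rw [h]; exact conj_z Q z hzQ D hz g
    have heq := Subgroup.eq_of_le_of_card_ge hle (by rw [hC, D.card_center])
    have hxC : x ∈ C := hx
    rw [← heq] at hxC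
    exact D.mem_center.1 hxC
  · exfalso
    apply hnc
    have htop : C = ⊤ := Subgroup.eq_top_of_card_eq C (by rw [hC, D.card])
    -- kernel
    let f : K →* MulAut Q := (MulAut.conjNormal : H →* MulAut Q).comp K.subtype
    have hker : f.ker = ⊥ ∨ f.ker = ⊤ := IsSimpleGroup.eq_bot_or_eq_top_of_normal f.ker inferInstance
    have hgf : (⟨g, hgK⟩ : K) ∈ f.ker := by
      rw [MonoidHom.mem_ker]
      ext1 y
      have : y ∈ C := by rw [htop]; exact Subgroup.mem_top y
      exact this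
    rcases hker with h | h
    · rw [h, Subgroup.mem_bot] at hgf
      exact absurd (Subtype.ext_iff.1 hgf) hg1
    · intro k hk y hy
      have : (⟨k, hk⟩ : K) ∈ f.ker := by rw [h]; exact Subgroup.mem_top _
      have h3 : (MulAut.conjNormal k : MulAut Q) ⟨y, hy⟩ = ⟨y, hy⟩ := by
        have h4 : f ⟨k, hk⟩ = 1 := this
        have := congrArg (fun ψ : MulAut Q => ψ ⟨y, hy⟩) h4
        exact this
      have h5 := Subtype.ext_iff.1 h3
      rw [MulAut.conjNormal_apply] at h5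
      have h6 : k * y * k⁻¹ = y := h5
      calc k * y = k * y * k⁻¹ * k := by group
        _ = y * k := by rw [h6]

/-- the number of solutions of `x² = 1` in `Q` -/
theorem card_twelve (hnc : ¬ ∀ k ∈ K, ∀ x ∈ Q, k * x = x * k) (e : K ≃* alternatingGroup (Fin 5)) :
    Nat.card {x : Q // x * x = 1} = 12 := by
  classical
  obtain ⟨a, ha⟩ : ∃ a : {a : alternatingGroup (Fin 5) // a * a = 1 ∧ a ≠ 1}, True := by
    have h := a5_inv
    haveI : Nonempty {a : alternatingGroup (Fin 5) // a * a = 1 ∧ a ≠ 1} := Fintype.card_pos_iff.1 (by rw [h]; norm_num)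
    exact ⟨Classical.arbitrary _, trivial⟩
  obtain ⟨b, hb1, hb2, hab5, hab1⟩ := a5_five a.1 a.2.1 a.2.2
  let g : K := e.symm (a.1 * b)
  have hg5 : (g : H) ^ 5 = 1 := by
    have h1 : g ^ 5 = 1 := by rw [← map_pow, hab5, map_one]
    have := congrArg (fun w : K => (w : H)) h1
    simpa using this
  have hg1 : (g : H) ≠ 1 := by
    intro h
    apply hab1
    have h1 : g = 1 := Subtype.ext h
    have := congrArg e h1
    rwa [map_one, MulEquiv.apply_symm_apply] at this
  have hfix := centralizer_of_five Q K z hzQ D hz hnc e g g.2 hg5 hg1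
  let φ : MulAut Q := MulAut.conjNormal (g : H)
  have hφ5 : φ ^ 5 = 1 := by
    show (MulAut.conjNormal (g : H) : MulAut Q) ^ 5 = 1
    rw [← map_pow, hg5, map_one]
  let σ : Equiv.Perm {x : Q // x * x = 1} :=
    ⟨fun x => ⟨φ x, by rw [← map_mul, x.2, map_one]⟩, fun x => ⟨φ⁻¹ x, by rw [← map_mul, x.2, map_one]⟩,
      fun x => Subtype.ext (MulAut.inv_apply_self _ _ _), fun x => Subtype.ext (MulAut.apply_inv_self _ _ _)⟩
  have hσ : ∀ n : ℕ, ∀ x, (((σ ^ n) x : {x : Q // x * x = 1}) : Q) = (φ ^ n) x := by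
    intro n
    induction n with
    | zero => intro x; rfl
    | succ n ih => intro x; rw [pow_succ, pow_succ, Equiv.Perm.mul_apply, ih]; rfl
  have hmod := fix_mod σ (by
    ext x
    rw [hσ, hφ5]; rfl)
  have hfx : Nat.card {x // σ x = x} = 2 := by
    rw [← D.card_center]
    apply Nat.card_congr
    refine ⟨fun x => ⟨x.1.1, D.mem_center.2 (hfix _ (Subtype.ext_iff.1 x.2))⟩, fun y => ⟨⟨y.1, ?_⟩, ?_⟩, fun x => rfl, fun y => rfl⟩
    · rcases D.mem_center.1 y.2 with h | h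
      · rw [h, mul_one]
      · rw [h]; exact D.zz
    · apply Subtype.ext
      show φ y.1 = y.1
      rcases D.mem_center.1 y.2 with h | h
      · rw [h, map_one]
      · rw [h]; exact conj_z Q z hzQ D hz g
  rw [hfx] at hmod
  haveI := Fintype.ofFinite Q
  rw [Nat.card_eq_fintype_card] at hmod ⊢
  rcases D.card_cases with h | h
  · exact h.1
  · rw [h.1] at hmod; exact absurd hmod (by decide)

theorem ct_mul (a b : H) (x : Q) (ha : x ∈ Ct Q z hzQ D a) (hb : x ∈ Ct Q z hzQ D b) : x ∈ Ct Q z hzQ D (a * b) := by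
  rw [mem_Ct _ _ _ _ hz] at ha hb ⊢
  rw [map_mul, MulAut.mul_apply]
  rcases hb with hb | hb
  · rw [hb]; exact ha
  · rw [hb, map_mul, conj_z Q z hzQ D hz]
    rcases ha with ha | ha
    · right; rw [ha]
    · left; rw [ha, D.mul_z]

theorem ct_five (g : H) (hg5 : g ^ 5 = 1) (x : Q) (hx : x ∈ Ct Q z hzQ D g) : (MulAut.conjNormal g : MulAut Q) x = x := by
  rcases hx with hx | hx
  · exact hx
  · exfalso
    have hpow : ∀ n : ℕ, (MulAut.conjNormal (g ^ n) : MulAut Q) x = x * (⟨z, hzQ⟩ : Q) ^ n := by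
      intro n
      induction n with
      | zero => rw [pow_zero, pow_zero, map_one, mul_one]; rfl
      | succ n ih =>
        rw [pow_succ', map_mul, MulAut.mul_apply, ih, map_mul, hx, map_pow, conj_z Q z hzQ D hz, pow_succ', mul_assoc]
    have h5 := hpow 5
    rw [hg5, map_one] at h5
    have h6 : x = x * ⟨z, hzQ⟩ ^ 5 := h5
    have h7 : (⟨z, hzQ⟩ : Q) ^ 5 = 1 := (left_eq_mul.1 h6)
    have h8 : (⟨z, hzQ⟩ : Q) ^ 2 = 1 := by rw [pow_two]; exact D.zz
    apply D.ne
    calc (⟨z, hzQ⟩ : Q) = ⟨z, hzQ⟩ ^ 5 * ((⟨z, hzQ⟩ ^ 2) ^ 2)⁻¹ := by group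
      _ = 1 := by rw [h7, h8]; simp

theorem ct_eight (hnc : ¬ ∀ k ∈ K, ∀ x ∈ Q, k * x = x * k) (e : K ≃* alternatingGroup (Fin 5)) (k : H) (hk : k ∈ K)
    (hkk : k * k = 1) (hk1 : k ≠ 1) : Nat.card (Ct Q z hzQ D k) = 8 := by
  have hge : ∀ a : H, a * a = 1 → 8 ≤ Nat.card (Ct Q z hzQ D a) := by
    intro a ha
    apply D.ge8 (MulAut.conjNormal a : MulAut Q) (fun x => ?_) _ (fun x => mem_Ct Q z hzQ D hz a x) (conj_z Q z hzQ D hz a)
    rw [← MulAut.mul_apply, ← map_mul, ha, map_one]; rfl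
  obtain ⟨b, hb1, hb2, hab5, hab1⟩ := a5_five (e ⟨k, hk⟩) (by
      rw [← map_mul]
      have : (⟨k, hk⟩ : K) * ⟨k, hk⟩ = 1 := Subtype.ext hkk
      rw [this, map_one]) (by
      intro h
      apply hk1
      have h1 : (⟨k, hk⟩ : K) = 1 := e.injective (h.trans (map_one e).symm)
      exact Subtype.ext_iff.1 h1)
  let b' : K := e.symm b
  have hbb : (b' : H) * b' = 1 := by
    have h1 : b' * b' = 1 := by rw [← map_mul, hb1, map_one]
    exact Subtype.ext_iff.1 h1
  have hg5 : (k * b') ^ 5 = 1 := by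
    have h1 : ((⟨k, hk⟩ : K) * b') ^ 5 = 1 := by
      apply e.injective
      rw [map_pow, map_mul, MulEquiv.apply_symm_apply, hab5, map_one]
    exact Subtype.ext_iff.1 h1
  have hg1 : k * b' ≠ 1 := by
    intro h
    apply hab1
    have h1 : (⟨k, hk⟩ : K) * b' = 1 := Subtype.ext h
    have := congrArg e h1
    rwa [map_one, map_mul, MulEquiv.apply_symm_apply] at this
  have hint : Ct Q z hzQ D k ⊓ Ct Q z hzQ D b' ≤ Subgroup.center Q := by
    intro x hx
    have h1 := ct_mul Q z hzQ D hz k b' x (Subgroup.mem_inf.1 hx).1 (Subgroup.mem_inf.1 hx).2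
    have h2 := ct_five Q z hzQ D hz _ hg5 x h1
    exact D.mem_center.2 (centralizer_of_five Q K z hzQ D hz hnc e (k * b') (K.mul_mem hk b'.2) hg5 hg1 x h2)
  have h1 := hge k hkk
  have h2 := hge b' hbb
  have h3 : Nat.card (Ct Q z hzQ D k ⊓ Ct Q z hzQ D b' : Subgroup Q) ≤ 2 := by
    rw [← D.card_center]; exact Subgroup.card_le_of_le hint
  have h4 : (Ct Q z hzQ D k ⊓ Ct Q z hzQ D b' : Subgroup Q).index ≤ (Ct Q z hzQ D k).index * (Ct Q z hzQ D b').index := Subgroup.index_inf_le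
  have h5 := Subgroup.card_mul_index (Ct Q z hzQ D k ⊓ Ct Q z hzQ D b' : Subgroup Q)
  have h6 := Subgroup.card_mul_index (Ct Q z hzQ D k)
  have h7 := Subgroup.card_mul_index (Ct Q z hzQ D b')
  rw [D.card] at h5 h6 h7
  have h8 : (Ct Q z hzQ D b').index ≤ 4 := by
    by_contra hcon
    push Not at hcon
    have : 8 * 5 ≤ Nat.card (Ct Q z hzQ D b') * (Ct Q z hzQ D b').index := Nat.mul_le_mul h2 hcon
    omega
  have h9 : 16 ≤ (Ct Q z hzQ D k ⊓ Ct Q z hzQ D b' : Subgroup Q).index := by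
    by_contra hcon
    push Not at hcon
    have : Nat.card (Ct Q z hzQ D k ⊓ Ct Q z hzQ D b' : Subgroup Q) * (Ct Q z hzQ D k ⊓ Ct Q z hzQ D b' : Subgroup Q).index ≤ 2 * 15 :=
      Nat.mul_le_mul h3 (by omega)
    omega
  have h10 : 4 ≤ (Ct Q z hzQ D k).index := by
    by_contra hcon
    push Not at hcon
    have : (Ct Q z hzQ D k).index * (Ct Q z hzQ D b').index ≤ 3 * 4 := Nat.mul_le_mul (by omega) h8
    omega
  have h11 : Nat.card (Ct Q z hzQ D k) * 4 ≤ 32 := by
    calc Nat.card (Ct Q z hzQ D k) * 4 ≤ Nat.card (Ct Q z hzQ D k) * (Ct Q z hzQ D k).index := Nat.mul_le_mul_left _ h10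
      _ = 32 := h6
  omega

/-- every involution outside `Q` -/
theorem ct_eight' (hnc : ¬ ∀ k ∈ K, ∀ x ∈ Q, k * x = x * k) (e : K ≃* alternatingGroup (Fin 5)) (hKQ : K ⊓ Q = ⊥) (k : H) (hk : k ∈ K) (x : Q)
    (hv : (k * x) * (k * x) = 1) (hvQ : k * (x : H) ∉ Q) : Nat.card (Ct Q z hzQ D (k * x)) = 8 := by
  have hk1 : k ≠ 1 := by rintro rfl; rw [one_mul] at hvQ; exact hvQ x.2
  have hkk : k * k = 1 := by
    have h1 : k * k ∈ K ⊓ Q := by
      refine Subgroup.mem_inf.2 ⟨K.mul_mem hk hk, ?_⟩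
      have h2 : (k * k) * (k⁻¹ * x * k * x) = 1 := by rw [← hv]; group
      rw [eq_inv_of_mul_eq_one_left h2]
      apply Q.inv_mem
      apply Q.mul_mem _ x.2
      have := (inferInstance : Q.Normal).conj_mem x x.2 k⁻¹
      rwa [inv_inv] at this
    rw [hKQ, Subgroup.mem_bot] at h1; exact h1
  rw [← ct_eight Q K z hzQ D hz hnc e k hk hkk hk1]
  congr 2
  ext y
  rw [mem_Ct _ _ _ _ hz, mem_Ct _ _ _ _ hz, map_mul, MulAut.mul_apply]
  have h1 : (MulAut.conjNormal (x : H) : MulAut Q) y = x * y * x⁻¹ := by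
    apply Subtype.ext
    rw [MulAut.conjNormal_apply]; rfl
  rw [h1]
  rcases D.comm x y with h | h
  · rw [h, mul_inv_cancel_right]
  · have h2 : x * y * x⁻¹ = y * ⟨z, hzQ⟩ := by rw [h, D.zc', mul_inv_cancel_right]
    rw [h2, map_mul, conj_z Q z hzQ D hz]
    generalize (MulAut.conjNormal k : MulAut Q) y = w
    constructor
    · rintro (h3 | h3)
      · right; rw [← h3, D.mul_z]
      · left; exact mul_right_cancel h3
    · rintro (h3 | h3)
      · right; rw [h3]
      · left; rw [h3, D.mul_z]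

/-- the elements `h` of `K Q`: number of involutions outside `Q` -/
theorem card_out (hnc : ¬ ∀ k ∈ K, ∀ x ∈ Q, k * x = x * k) (e : K ≃* alternatingGroup (Fin 5)) (hKQ : K ⊓ Q = ⊥) (hsup : K ⊔ Q = ⊤) :
    Nat.card {v : H // v ∉ Q ∧ v * v = 1} = 120 := by
  classical
  -- products
  have hprod : ∀ v : H, ∃ k ∈ K, ∃ x ∈ Q, k * x = v := by
    intro v
    have : v ∈ K ⊔ Q := by rw [hsup]; exact Subgroup.mem_top v
    rwa [← SetLike.mem_coe, Subgroup.mul_normal, Set.mem_mul] at this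
  have huniq : ∀ k ∈ K, ∀ k' ∈ K, ∀ x ∈ Q, ∀ x' ∈ Q, k * x = k' * x' → k = k' ∧ x = x' := by
    intro k hk k' hk' x hx x' hx' h
    have h1 : k'⁻¹ * k = x' * x⁻¹ := by
      rw [inv_mul_eq_iff_eq_mul, ← mul_assoc, ← h, mul_inv_cancel_right]
    have h2 : k'⁻¹ * k ∈ K ⊓ Q := Subgroup.mem_inf.2 ⟨K.mul_mem (K.inv_mem hk') hk, by rw [h1]; exact Q.mul_mem hx' (Q.inv_mem hx)⟩
    rw [hKQ, Subgroup.mem_bot, inv_mul_eq_one] at h2
    subst h2
    exact ⟨rfl, mul_left_cancel h⟩
  let I := {k : K // k * k = 1 ∧ k ≠ 1}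
  have hI : Nat.card I = 15 := by
    rw [← a5_inv, ← Nat.card_eq_fintype_card]
    apply Nat.card_congr
    refine ⟨fun k => ⟨e k.1, by rw [← map_mul, k.2.1, map_one], fun h => k.2.2 (e.injective (h.trans (map_one e).symm))⟩,
      fun a => ⟨e.symm a.1, by rw [← map_mul, a.2.1, map_one], fun h => a.2.2 (e.symm.injective (h.trans (map_one e.symm).symm))⟩,
      fun k => ?_, fun a => ?_⟩
    · apply Subtype.ext; exact e.symm_apply_apply _
    · apply Subtype.ext; exact e.apply_symm_apply _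
  have hφ : ∀ k : I, ∀ x, (MulAut.conjNormal (k.1 : H) : MulAut Q) ((MulAut.conjNormal (k.1 : H) : MulAut Q) x) = x := by
    intro k x
    rw [← MulAut.mul_apply, ← map_mul]
    have : (k.1 : H) * k.1 = 1 := Subtype.ext_iff.1 k.2.1
    rw [this, map_one]; rfl
  have h8 : ∀ k : I, Nat.card {x : Q // ((k.1 : H) * x) * (k.1 * x) = 1} = 8 := by
    intro k
    have h1 := ct_eight Q K z hzQ D hz hnc e k.1 k.1.2 (Subtype.ext_iff.1 k.2.1) (fun h => k.2.2 (Subtype.ext h))
    have h2 := D.inverts (MulAut.conjNormal (k.1 : H) : MulAut Q) (hφ k) _ (fun x => mem_Ct Q z hzQ D hz k.1 x) h1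
    rw [← h1]
    apply Nat.card_congr
    apply Equiv.subtypeEquivRight
    intro x
    have hkk : (k.1 : H) * k.1 = 1 := Subtype.ext_iff.1 k.2.1
    have hkinv : (k.1 : H)⁻¹ = k.1 := inv_eq_of_mul_eq_one_right hkk
    have h3 : ((k.1 : H) * x) * (k.1 * x) = ((MulAut.conjNormal (k.1 : H) : MulAut Q) x : Q) * x := by
      rw [MulAut.conjNormal_apply, hkinv]; group
    rw [h3]
    constructor
    · intro h4
      have h5 : (MulAut.conjNormal (k.1 : H) : MulAut Q) x * x = 1 := Subtype.ext h4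
      have h6 : (MulAut.conjNormal (k.1 : H) : MulAut Q) x = x⁻¹ := eq_inv_of_mul_eq_one_left h5
      show (MulAut.conjNormal (k.1 : H) : MulAut Q) x = x ∨ (MulAut.conjNormal (k.1 : H) : MulAut Q) x = x * ⟨z, hzQ⟩
      rw [h6]
      rcases D.sq x with h7 | h7
      · left; exact inv_eq_of_mul_eq_one_right h7
      · right
        rw [inv_eq_iff_mul_eq_one, ← mul_assoc, h7, D.zz]
    · intro h4
      have h5 := h2 x h4
      rw [h5]
      show ((x⁻¹ * x : Q) : H) = 1
      rw [inv_mul_cancel]; rfl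
  have hcongr : Nat.card {v : H // v ∉ Q ∧ v * v = 1} = Nat.card (Σ k : I, {x : Q // ((k.1 : H) * x) * (k.1 * x) = 1}) := by
    symm
    let T : (Σ k : I, {x : Q // ((k.1 : H) * x) * (k.1 * x) = 1}) → {v : H // v ∉ Q ∧ v * v = 1} :=
      fun p => ⟨(p.1.1 : H) * p.2.1, by
        refine ⟨fun hmem => ?_, p.2.2⟩
        have h1 : (p.1.1 : H) ∈ K ⊓ Q := Subgroup.mem_inf.2 ⟨p.1.1.2, by
          have := Q.mul_mem hmem (Q.inv_mem p.2.1.2)
          rwa [mul_inv_cancel_right] at this⟩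
        rw [hKQ, Subgroup.mem_bot] at h1
        exact p.1.2.2 (Subtype.ext h1)⟩
    apply Nat.card_congr (Equiv.ofBijective T ⟨?_, ?_⟩)
    · rintro ⟨⟨k, hk⟩, ⟨x, hx⟩⟩ ⟨⟨k', hk'⟩, ⟨x', hx'⟩⟩ h
      have h1 : (k : H) * x = k' * x' := Subtype.ext_iff.1 h
      obtain ⟨h2, h3⟩ := huniq k k.2 k' k'.2 x x.2 x' x'.2 h1
      have h4 : k = k' := Subtype.ext h2
      have h5 : x = x' := Subtype.ext h3
      subst h4; subst h5; rfl
    · rintro ⟨v, hv, hvv⟩
      obtain ⟨k, hk, x, hx, rfl⟩ := hprod v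
      have hk1 : k ≠ 1 := by rintro rfl; rw [one_mul] at hv; exact hv hx
      have hkk : k * k = 1 := by
        have h1 : k * k ∈ K ⊓ Q := by
          refine Subgroup.mem_inf.2 ⟨K.mul_mem hk hk, ?_⟩
          have h2 : (k * k) * (k⁻¹ * x * k * x) = 1 := by rw [← hvv]; group
          rw [eq_inv_of_mul_eq_one_left h2]
          apply Q.inv_mem
          apply Q.mul_mem _ hx
          have := (inferInstance : Q.Normal).conj_mem x hx k⁻¹
          rwa [inv_inv] at this
        rw [hKQ, Subgroup.mem_bot] at h1; exact h1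
      refine ⟨⟨⟨⟨k, hk⟩, Subtype.ext hkk, fun h => hk1 (Subtype.ext_iff.1 h)⟩, ⟨⟨x, hx⟩, hvv⟩⟩, rfl⟩
  haveI : Fintype I := Fintype.ofFinite I
  rw [hcongr, Nat.card_sigma]
  rw [Finset.sum_congr rfl (fun k _ => h8 k), Finset.sum_const, Finset.card_univ, ← Nat.card_eq_fintype_card, hI]
  norm_num

/-- the number of pairs -/
theorem card_pairs (hnc : ¬ ∀ k ∈ K, ∀ x ∈ Q, k * x = x * k) (e : K ≃* alternatingGroup (Fin 5)) (hKQ : K ⊓ Q = ⊥) (hsup : K ⊔ Q = ⊤) :
    Nat.card {p : H × H // (p.1 ∈ Q ∧ p.1 * p.1 = 1 ∧ p.1 ≠ 1) ∧ (p.2 ∉ Q ∧ p.2 * p.2 = 1) ∧ z ∈ Subgroup.zpowers (p.1 * p.2)} = 960 := by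
  classical
  have h12 := card_twelve Q K z hzQ D hz hnc e
  have hprod : ∀ v : H, ∃ k ∈ K, ∃ x ∈ Q, k * x = v := by
    intro v
    have : v ∈ K ⊔ Q := by rw [hsup]; exact Subgroup.mem_top v
    rwa [← SetLike.mem_coe, Subgroup.mul_normal, Set.mem_mul] at this
  have h8 : ∀ v : {v : H // v ∉ Q ∧ v * v = 1}, Nat.card {u : H // (u ∈ Q ∧ u * u = 1 ∧ u ≠ 1) ∧ z ∈ Subgroup.zpowers (u * v.1)} = 8 := by
    rintro ⟨v, hv, hvv⟩
    have hφ : ∀ x, (MulAut.conjNormal v : MulAut Q) ((MulAut.conjNormal v : MulAut Q) x) = x := by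
      intro x
      rw [← MulAut.mul_apply, ← map_mul, hvv, map_one]; rfl
    have hvinv : v⁻¹ = v := inv_eq_of_mul_eq_one_right hvv
    have hct : Nat.card (Ct Q z hzQ D v) = 8 := by
      obtain ⟨k, hk, x, hx, rfl⟩ := hprod v
      exact ct_eight' Q K z hzQ D hz hnc e hKQ k hk ⟨x, hx⟩ hvv hv
    obtain ⟨hfix4, hfixsq⟩ := D.card_fix h12 (MulAut.conjNormal v : MulAut Q) hφ _ (fun x => mem_Ct Q z hzQ D hz v x) hct
    -- the criterion
    have hcrit : ∀ u : Q, u * u = 1 → (z ∈ Subgroup.zpowers ((u : H) * v) ↔ (MulAut.conjNormal v : MulAut Q) u ≠ u) := by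
      intro u hu
      have huv : ((u : H) * v) * (u * v) = (u * (MulAut.conjNormal v : MulAut Q) u : Q) := by
        rw [Subgroup.coe_mul, MulAut.conjNormal_apply, hvinv]; group
      constructor
      · intro h h1
        rw [h1, hu] at huv
        have huv' : ((u : H) * v) ^ (2 : ℤ) = 1 := by rw [zpow_ofNat, pow_two]; exact huv
        obtain ⟨m, hm⟩ := Subgroup.mem_zpowers_iff.1 h
        rcases Int.even_or_odd' m with ⟨j, rfl | rfl⟩
        · rw [zpow_mul] at hm
          rw [huv', one_zpow] at hm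
          exact D.ne (Subtype.ext hm.symm)
        · rw [zpow_add, zpow_mul, huv', one_zpow, one_mul, zpow_one] at hm
          apply hv
          have h3 : v = (u : H)⁻¹ * z := by rw [← hm]; group
          rw [h3]; exact Q.mul_mem (Q.inv_mem u.2) hzQ
      · intro h
        have hu1 : u ≠ 1 := by rintro rfl; exact h (map_one _)
        have huz : u ≠ ⟨z, hzQ⟩ := by rintro rfl; exact h (conj_z Q z hzQ D hz v)
        obtain ⟨w, hw⟩ : ∃ w, w = (MulAut.conjNormal v : MulAut Q) u := ⟨_, rfl⟩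
        have hww : w * w = 1 := by rw [hw, ← map_mul, hu, map_one]
        have hnc' : u * w ≠ w * u := by
          intro hc
          rcases D.nonperp h12 hu hu1 huz hww hc with h1 | h1 | h1 | h1
          · rw [hw] at h1; exact hu1 ((MulAut.conjNormal v : MulAut Q).injective (h1.trans (map_one _).symm))
          · rw [hw] at h1; exact huz ((MulAut.conjNormal v : MulAut Q).injective (h1.trans (conj_z Q z hzQ D hz v).symm))
          · exact h (hw ▸ h1)
          · -- then u ∈ Ct, so φ u = u⁻¹ = u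
            have h3 := D.inverts (MulAut.conjNormal v : MulAut Q) hφ _ (fun x => mem_Ct Q z hzQ D hz v x) hct u (Or.inr (hw ▸ h1))
            apply h
            rw [h3]; exact inv_eq_of_mul_eq_one_right hu
        have h4 : (u * w) * (u * w) = ⟨z, hzQ⟩ := by
          have h5 := D.comm' hnc'
          calc (u * w) * (u * w) = (w * u * ⟨z, hzQ⟩) * (u * w) := by rw [← h5]
            _ = w * (u * (⟨z, hzQ⟩ * u)) * w := by group
            _ = w * (u * (u * ⟨z, hzQ⟩)) * w := by rw [D.zc]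
            _ = w * ((u * u) * ⟨z, hzQ⟩) * w := by group
            _ = w * (⟨z, hzQ⟩ * w) := by rw [hu]; group
            _ = w * (w * ⟨z, hzQ⟩) := by rw [D.zc]
            _ = w * w * ⟨z, hzQ⟩ := by group
            _ = ⟨z, hzQ⟩ := by rw [hww, one_mul]
        have h6 : ((u : H) * v) ^ 4 = z := by
          have e1 : ((u : H) * v) ^ 4 = (((u : H) * v) * (u * v)) * (((u : H) * v) * (u * v)) := by
            simp only [pow_succ, pow_zero, one_mul, mul_assoc]
          rw [e1, huv, ← hw, ← Subgroup.coe_mul, h4]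
        rw [← h6]; exact Subgroup.pow_mem _ (Subgroup.mem_zpowers _) 4
    -- counting
    have h1 : Nat.card {u : H // (u ∈ Q ∧ u * u = 1 ∧ u ≠ 1) ∧ z ∈ Subgroup.zpowers (u * v)} =
        Nat.card {u : Q // u * u = 1 ∧ (MulAut.conjNormal v : MulAut Q) u ≠ u} := by
      apply Nat.card_congr
      refine ⟨fun u => ⟨⟨u.1, u.2.1.1⟩, Subtype.ext u.2.1.2.1, (hcrit _ (Subtype.ext u.2.1.2.1)).1 u.2.2⟩,
        fun u => ⟨u.1.1, ⟨u.1.2, Subtype.ext_iff.1 u.2.1, ?_⟩, (hcrit _ u.2.1).2 u.2.2⟩, fun u => rfl, fun u => rfl⟩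
      intro h
      apply u.2.2
      have : u.1 = 1 := Subtype.ext h
      rw [this, map_one]
    rw [h1]
    haveI := Fintype.ofFinite Q
    rw [Nat.card_eq_fintype_card, Fintype.card_subtype] at h12 hfix4 ⊢
    have h2 : (Finset.univ.filter (fun u : Q => u * u = 1)) =
        (Finset.univ.filter (fun u : Q => (MulAut.conjNormal v : MulAut Q) u = u)) ∪
        (Finset.univ.filter (fun u : Q => u * u = 1 ∧ (MulAut.conjNormal v : MulAut Q) u ≠ u)) := by
      ext u
      simp only [Finset.mem_filter, Finset.mem_univ, true_and, Finset.mem_union]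
      constructor
      · intro h
        by_cases h3 : (MulAut.conjNormal v : MulAut Q) u = u
        · exact Or.inl h3
        · exact Or.inr ⟨h, h3⟩
      · rintro (h | h)
        · exact hfixsq u h
        · exact h.1
    have h3 : Disjoint (Finset.univ.filter (fun u : Q => (MulAut.conjNormal v : MulAut Q) u = u))
        (Finset.univ.filter (fun u : Q => u * u = 1 ∧ (MulAut.conjNormal v : MulAut Q) u ≠ u)) := by
      rw [Finset.disjoint_left]
      intro u hu hu'
      exact (Finset.mem_filter.1 hu').2.2 (Finset.mem_filter.1 hu).2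
    rw [h2, Finset.card_union_of_disjoint h3, hfix4] at h12
    omega
  have hcongr : Nat.card {p : H × H // (p.1 ∈ Q ∧ p.1 * p.1 = 1 ∧ p.1 ≠ 1) ∧ (p.2 ∉ Q ∧ p.2 * p.2 = 1) ∧ z ∈ Subgroup.zpowers (p.1 * p.2)} =
      Nat.card (Σ v : {v : H // v ∉ Q ∧ v * v = 1}, {u : H // (u ∈ Q ∧ u * u = 1 ∧ u ≠ 1) ∧ z ∈ Subgroup.zpowers (u * v.1)}) := by
    apply Nat.card_congr
    exact ⟨fun p => ⟨⟨p.1.2, p.2.2.1⟩, ⟨p.1.1, p.2.1, p.2.2.2⟩⟩, fun s => ⟨(s.2.1, s.1.1), s.2.2.1, s.1.2, s.2.2.2⟩, fun p => rfl, fun s => rfl⟩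
  haveI := Fintype.ofFinite {v : H // v ∉ Q ∧ v * v = 1}
  rw [hcongr, Nat.card_sigma]
  rw [Finset.sum_congr rfl (fun k _ => h8 k), Finset.sum_const, Finset.card_univ, ← Nat.card_eq_fintype_card,
    card_out Q K z hzQ D hz hnc e hKQ hsup]
  norm_num

end

end Cfsg.Agent.H19.J2
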