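import Mathlib
import Cfsg.Agent.H19_Transfer

/-! Transfer computed from a section of `G → G ⧸ H`; parity of the number of fixed cosets (helper19). -/

set_option autoImplicit false

namespace Cfsg.Agent.H19.Mackey

open MulAction Subgroup

variable {G : Type*} [Group G]

theorem mem_sec {H : Subgroup G} {s : G ⧸ H → G} (hs : ∀ q, (s q : G ⧸ H) = q) (g : G) (q : G ⧸ H) :
    (s (g • q))⁻¹ * g * s q ∈ H := by
  rw [mul_assoc, ← QuotientGroup.eq, hs]
  show g • q = g • ((s q : G) : G ⧸ H)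
  rw [hs]

/-- the transfer, computed with a section -/
theorem transfer_eq_prod {H : Subgroup G} [H.FiniteIndex] [inst : Fintype (G ⧸ H)] {A : Type*} [CommGroup A] (ϕ : H →* A)
    (s : G ⧸ H → G) (hs : ∀ q, (s q : G ⧸ H) = q) (g : G) :
    MonoidHom.transfer ϕ g = ∏ q : G ⧸ H, ϕ ⟨(s (g • q))⁻¹ * g * s q, mem_sec hs g q⟩ := by
  classical
  obtain rfl : H.fintypeQuotientOfFiniteIndex = inst := Subsingleton.elim _ _
  let _ := H.fintypeQuotientOfFiniteIndex
  let T : H.LeftTransversal := ⟨Set.range s, isComplement_range_left hs⟩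
  have hT : ∀ q, ((T.2.leftQuotientEquiv q : T.1) : G) = s q := fun q => IsComplement.leftQuotientEquiv_apply hs q
  rw [MonoidHom.transfer_def ϕ T g]
  unfold leftTransversals.diff
  symm
  refine Fintype.prod_equiv (MulAction.toPerm g) _ _ ?_
  intro q
  congr 1
  apply Subtype.ext
  show (s (g • q))⁻¹ * g * s q = ((T.2.leftQuotientEquiv (g • q) : T.1) : G)⁻¹ * (((g • T).2.leftQuotientEquiv (g • q) : (g • T).1) : G)
  rw [smul_apply_eq_smul_apply_inv_smul, inv_smul_smul, hT, hT, smul_eq_mul, mul_assoc]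

/-- the set of cosets `gH` with `g⁻¹ x g ∈ H \ N`; here `N` is normal in `H`. -/
def fixSet (H N : Subgroup G) (x : G) : Set (G ⧸ H) :=
  {q | ∀ g : G, (g : G ⧸ H) = q → g⁻¹ * x * g ∈ H ∧ g⁻¹ * x * g ∉ N}

theorem conj_mem_iff_of_relIndex {H N : Subgroup G} (hNH : N ≤ H) (h2 : N.relIndex H = 2) {h y : G} (hh : h ∈ H) :
    h⁻¹ * y * h ∈ N ↔ y ∈ N := by
  have hn : (N.subgroupOf H).Normal := Subgroup.normal_of_index_eq_two h2
  have key : ∀ h ∈ H, ∀ y ∈ N, h * y * h⁻¹ ∈ N := by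
    intro h hh y hy
    have := hn.conj_mem ⟨y, hNH hy⟩ (by rwa [Subgroup.mem_subgroupOf]) ⟨h, hh⟩
    rw [Subgroup.mem_subgroupOf] at this
    exact this
  constructor
  · intro h1
    have := key h hh _ h1
    simpa [mul_assoc] using this
  · intro h1
    have := key h⁻¹ (inv_mem hh) _ h1
    rwa [inv_inv] at this

theorem mk_mem_fixSet {H N : Subgroup G} (hNH : N ≤ H) (h2 : N.relIndex H = 2) {x g : G} :
    (g : G ⧸ H) ∈ fixSet H N x ↔ g⁻¹ * x * g ∈ H ∧ g⁻¹ * x * g ∉ N := by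
  constructor
  · intro h
    exact h g rfl
  · rintro ⟨h1, h3⟩ g' hg'
    have hh : g⁻¹ * g' ∈ H := by
      rw [← QuotientGroup.eq]; exact hg'.symm
    have e : g'⁻¹ * x * g' = (g⁻¹ * g')⁻¹ * (g⁻¹ * x * g) * (g⁻¹ * g') := by group
    rw [e]
    refine ⟨mul_mem (mul_mem (inv_mem hh) h1) hh, ?_⟩
    rw [conj_mem_iff_of_relIndex hNH h2 hh]
    exact h3

/-- The transfer of an involution. -/
theorem transfer_involution {H N : Subgroup G} [Finite G] (hNH : N ≤ H) (h2 : (N.subgroupOf H).index = 2) {x : G} (hx : x * x = 1) :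
    MonoidHom.transfer (H19.Transfer.sgn (N.subgroupOf H) h2) x = (-1) ^ (Nat.card (fixSet H N x)) := by
  classical
  let inst : Fintype (G ⧸ H) := Fintype.ofFinite _
  rw [transfer_eq_prod (inst := inst) _ Quotient.out (fun q => QuotientGroup.out_eq' q)]
  rw [← Finset.prod_filter_mul_prod_filter_not Finset.univ (fun q => x • q = q)]
  have hxx : ∀ q : G ⧸ H, x • x • q = q := by
    intro q; rw [smul_smul, hx, one_smul]
  have h1 : ∏ q ∈ (Finset.univ : Finset (G ⧸ H)) with ¬ (x • q = q), (H19.Transfer.sgn (N.subgroupOf H) h2) ⟨(x • q).out⁻¹ * x * q.out, mem_sec (fun q => QuotientGroup.out_eq' q) x q⟩ = 1 := by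
    apply Finset.prod_involution (fun q _ => x • q)
    · intro q hq
      rw [← map_mul]
      rw [H19.Transfer.sgn_eq_one_iff]
      rw [Subgroup.mem_subgroupOf]
      show (x • q).out⁻¹ * x * q.out * ((x • x • q).out⁻¹ * x * (x • q).out) ∈ N
      rw [hxx]
      have : (x • q).out⁻¹ * x * q.out * (q.out⁻¹ * x * (x • q).out) = (x • q).out⁻¹ * (x * x) * (x • q).out := by group
      rw [this, hx]
      simp
    · intro q hq _
      rw [Finset.mem_filter] at hq
      exact hq.2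
    · intro q hq
      exact hxx q
    · intro q hq
      rw [Finset.mem_filter] at hq ⊢
      refine ⟨Finset.mem_univ _, ?_⟩
      rw [hxx]
      exact fun h => hq.2 h.symm
  rw [h1, mul_one]
  rw [← Finset.prod_filter_mul_prod_filter_not (Finset.univ.filter (fun q => x • q = q)) (fun q => q ∈ fixSet H N x)]
  have hout : ∀ q : G ⧸ H, (((q.out : G)) : G ⧸ H) = q := fun q => QuotientGroup.out_eq' q
  have h3 : ∏ q ∈ ((Finset.univ : Finset (G ⧸ H)).filter (fun q => x • q = q)).filter (fun q => ¬ q ∈ fixSet H N x), (H19.Transfer.sgn (N.subgroupOf H) h2) ⟨(x • q).out⁻¹ * x * q.out, mem_sec (fun q => QuotientGroup.out_eq' q) x q⟩ = 1 := by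
    apply Finset.prod_eq_one
    intro q hq
    rw [Finset.mem_filter, Finset.mem_filter] at hq
    rw [H19.Transfer.sgn_eq_one_iff, Subgroup.mem_subgroupOf]
    show (x • q).out⁻¹ * x * q.out ∈ N
    rw [hq.1.2]
    by_contra hcon
    apply hq.2
    rw [← hout q, mk_mem_fixSet hNH h2]
    refine ⟨?_, hcon⟩
    have := mem_sec hout x q
    rwa [hq.1.2] at this
  rw [h3, mul_one]
  have h4 : ∀ q ∈ ((Finset.univ : Finset (G ⧸ H)).filter (fun q => x • q = q)).filter (fun q => q ∈ fixSet H N x), (H19.Transfer.sgn (N.subgroupOf H) h2) ⟨(x • q).out⁻¹ * x * q.out, mem_sec (fun q => QuotientGroup.out_eq' q) x q⟩ = -1 := by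
    intro q hq
    rw [Finset.mem_filter, Finset.mem_filter] at hq
    rw [H19.Transfer.sgn_eq_neg_one_iff, Subgroup.mem_subgroupOf]
    show (x • q).out⁻¹ * x * q.out ∉ N
    rw [hq.1.2]
    exact (hq.2 _ (hout q)).2
  rw [Finset.prod_congr rfl h4, Finset.prod_const]
  congr 1
  rw [Finset.filter_filter]
  rw [Nat.card_eq_fintype_card, ← Set.toFinset_card]
  congr 1
  ext q
  rw [Finset.mem_filter, Set.mem_toFinset]
  constructor
  · rintro ⟨_, _, h⟩; exact h
  · intro h
    refine ⟨Finset.mem_univ _, ?_, h⟩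
    have h5 := (h _ (hout q)).1
    rw [mul_assoc, ← QuotientGroup.eq] at h5
    rw [← hout q]
    exact h5.symm

/-- if `G` has no subgroup of index two, the number of fixed points of an involution of sign `-1` is even -/
theorem even_fixSet {H N : Subgroup G} [Finite G] (hG : ∀ K : Subgroup G, K.index ≠ 2) (hNH : N ≤ H) (h2 : N.relIndex H = 2) {x : G} (hx : x * x = 1) :
    Even (Nat.card (fixSet H N x)) := by
  by_contra hcon
  rw [Nat.not_even_iff_odd] at hcon
  have h1 := transfer_involution hNH h2 hx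
  rw [hcon.neg_one_pow] at h1
  exact hG _ (H19.Transfer.index_ker _ h1)

/-- A `2`-subgroup centralizing `x` acts on `fixSet H N x`. -/
def fixAct (H N A : Subgroup G) (x : G) (hA : ∀ a ∈ A, a * x = x * a) : SubMulAction A (G ⧸ H) where
  carrier := fixSet H N x
  smul_mem' := by
    rintro ⟨a, ha⟩ q hq g hg
    have e : (a⁻¹ * g)⁻¹ * x * (a⁻¹ * g) = g⁻¹ * x * g := by
      have h1 : a * x * a⁻¹ = x := by rw [hA a ha, mul_inv_cancel_right]
      calc (a⁻¹ * g)⁻¹ * x * (a⁻¹ * g) = g⁻¹ * (a * x * a⁻¹) * g := by group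
        _ = _ := by rw [h1]
    rw [← e]
    apply hq
    have : ((a⁻¹ * g : G) : G ⧸ H) = a⁻¹ • (g : G ⧸ H) := rfl
    rw [this, hg]
    show a⁻¹ • (a • q) = q
    rw [inv_smul_smul]

/-- parity of the number of fixed cosets, by counting fixed points of `A` -/
theorem exists_other_fixed {H N A : Subgroup G} [Finite G] (hG : ∀ K : Subgroup G, K.index ≠ 2) (hNH : N ≤ H)
    (h2 : N.relIndex H = 2) {x : G} (hx : x * x = 1) (hA : ∀ a ∈ A, a * x = x * a) (hA2 : IsPGroup 2 A)
    (hAH : A ≤ H) (hxH : x ∈ H) (hxN : x ∉ N) :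
    ∃ g : G, g ∉ H ∧ g⁻¹ * x * g ∈ H ∧ g⁻¹ * x * g ∉ N ∧ ∀ a ∈ A, g⁻¹ * a * g ∈ H := by
  classical
  haveI : Fact (Nat.Prime 2) := ⟨Nat.prime_two⟩
  by_contra hcon
  push Not at hcon
  have h1 := even_fixSet hG hNH h2 hx
  have h3 := hA2.card_modEq_card_fixedPoints (fixAct H N A x hA)
  have h4 : Nat.card (MulAction.fixedPoints A (fixAct H N A x hA)) = 1 := by
    rw [Nat.card_eq_one_iff_exists]
    have hmem : ((1 : G) : G ⧸ H) ∈ fixSet H N x := by
      rw [mk_mem_fixSet hNH h2]; simpa using ⟨hxH, hxN⟩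
    refine ⟨⟨⟨((1 : G) : G ⧸ H), hmem⟩, ?_⟩, ?_⟩
    · intro a
      apply Subtype.ext
      show (((a : G) * 1 : G) : G ⧸ H) = ((1 : G) : G ⧸ H)
      rw [QuotientGroup.eq]
      simpa using hAH a.2
    · rintro ⟨⟨q, hq⟩, hfix⟩
      apply Subtype.ext
      apply Subtype.ext
      show q = ((1 : G) : G ⧸ H)
      obtain ⟨g, rfl⟩ := QuotientGroup.mk_surjective q
      have hq' := (mk_mem_fixSet hNH h2).1 hq
      have hg : g ∈ H := by
        by_contra hg
        obtain ⟨a, ha, hn⟩ := hcon g hg hq'.1 hq'.2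
        apply hn
        have h5 := congrArg Subtype.val (hfix ⟨a, ha⟩)
        have h6 : ((a * g : G) : G ⧸ H) = (g : G ⧸ H) := h5
        have h7 := QuotientGroup.eq.1 h6.symm
        rwa [← mul_assoc] at h7
      rw [QuotientGroup.eq]; simpa using inv_mem hg
  have h5 : Nat.card (fixAct H N A x hA) = Nat.card (fixSet H N x) := rfl
  rw [h4, h5] at h3
  unfold Nat.ModEq at h3
  rw [Nat.even_iff] at h1
  omega

end Cfsg.Agent.H19.Mackey
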