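import Mathlib
import Cfsg.Agent.H19_Mackey
import Cfsg.Agent.H3_Grp
import Cfsg.Agent.H2_Card
import Cfsg.Agent.H1_Schmidt

/-! Transfer of a sign homomorphism up a chain of subgroups of a `2`-group `A` which is large on an almost
elementary abelian normal subgroup `E` (helper19). -/

set_option autoImplicit false

namespace Cfsg.Agent.H19.Level

variable {A : Type*} [Group A]

def Comp (F : A → ℤˣ) (B : Subgroup A) : Prop := ∀ a, ∀ b ∈ B, F (a * b) = F a * (F b * F 1)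

def Good (F : A → ℤˣ) (B : Subgroup A) : Prop := ∀ x : A, 2 * Nat.card B ∣ Nat.card {a : A // F (x * a) ≠ F a}

/-- a right invariant set has cardinality divisible by `|B|` -/
theorem card_dvd_of_inv [Finite A] (B : Subgroup A) (P : A → Prop) (hP : ∀ a, P a → ∀ b ∈ B, P (a * b)) :
    Nat.card B ∣ Nat.card {a : A // P a} := by
  classical
  letI act : MulAction B {a : A // P a} :=
    { smul := fun b a => ⟨(a : A) * (b : A)⁻¹, hP a a.2 _ (inv_mem b.2)⟩
      one_smul := fun a => Subtype.ext (by show (a : A) * ((1 : B) : A)⁻¹ = a; simp)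
      mul_smul := fun b c a => Subtype.ext (by
        show (a : A) * ((b * c : B) : A)⁻¹ = (a : A) * (c : A)⁻¹ * (b : A)⁻¹
        rw [Subgroup.coe_mul, mul_inv_rev, mul_assoc]) }
  apply H3.Grp.dvd_card_of_stabilizer (N := B)
  intro a
  have hbot : MulAction.stabilizer B a = ⊥ := by
    rw [Subgroup.eq_bot_iff_forall]
    intro b hb
    rw [MulAction.mem_stabilizer_iff] at hb
    have h1 : (a : A) * (b : A)⁻¹ = a := congrArg Subtype.val hb
    have h2 : (b : A)⁻¹ = 1 := mul_eq_left.1 h1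
    apply Subtype.ext
    exact inv_eq_one.1 h2
  rw [hbot, Subgroup.index_bot]

omit [Group A] in
theorem card_split [Finite A] (P Q : A → Prop) :
    Nat.card {a : A // P a} = Nat.card {a : A // P a ∧ Q a} + Nat.card {a : A // P a ∧ ¬ Q a} := by
  classical
  haveI := Fintype.ofFinite A
  simp only [Nat.card_eq_fintype_card, Fintype.card_subtype]
  rw [← Finset.card_filter_add_card_filter_not (s := Finset.univ.filter P) Q, Finset.filter_filter, Finset.filter_filter]

omit [Group A] in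
theorem card_map [Finite A] (P Q : A → Prop) (f : A ≃ A) (h : ∀ a, P a ↔ Q (f a)) :
    Nat.card {a : A // P a} = Nat.card {a : A // Q a} :=
  Nat.card_congr (f.subtypeEquiv h)

theorem ne_iff (u v : ℤˣ) : u ≠ v ↔ ((u = -1 ∧ ¬ v = -1) ∨ (¬ u = -1 ∧ v = -1)) := by
  revert u v; decide

/-- the trivial level -/
theorem good_of_trivial [Finite A] {F : A → ℤˣ} {B : Subgroup A} (hc : Comp F B) (ht : ∀ b ∈ B, F b = F 1) : Good F B := by
  classical
  intro x
  have hinv : ∀ a, ∀ b ∈ B, F (a * b) = F a := by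
    intro a b hb
    rw [hc a b hb, ht b hb, Int.units_mul_self, mul_one]
  have h1 : Nat.card {a : A // F (x * a) = -1} = Nat.card {a : A // F a = -1} :=
    card_map _ _ (Equiv.mulLeft x) (fun a => Iff.rfl)
  have h2 := card_split (fun a => F (x * a) = -1) (fun a => F a = -1)
  have h3 := card_split (fun a => F a = -1) (fun a => F (x * a) = -1)
  have h4 : Nat.card {a : A // F a = -1 ∧ F (x * a) = -1} = Nat.card {a : A // F (x * a) = -1 ∧ F a = -1} :=
    Nat.card_congr (Equiv.subtypeEquivRight (fun a => and_comm))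
  have h5 := card_split (fun a => F (x * a) ≠ F a) (fun a => F (x * a) = -1)
  have h6 : Nat.card {a : A // F (x * a) ≠ F a ∧ F (x * a) = -1} = Nat.card {a : A // F (x * a) = -1 ∧ ¬ F a = -1} := by
    apply Nat.card_congr (Equiv.subtypeEquivRight (fun a => ?_))
    rw [ne_iff]; tauto
  have h7 : Nat.card {a : A // F (x * a) ≠ F a ∧ ¬ F (x * a) = -1} = Nat.card {a : A // F a = -1 ∧ ¬ F (x * a) = -1} := by
    apply Nat.card_congr (Equiv.subtypeEquivRight (fun a => ?_))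
    rw [ne_iff]; tauto
  obtain ⟨k, hk⟩ := card_dvd_of_inv B (fun a => F (x * a) = -1 ∧ ¬ F a = -1) (by
    intro a ha b hb
    rw [← mul_assoc, hinv _ b hb, hinv _ b hb]
    exact ha)
  refine ⟨k, ?_⟩
  rw [h5, h6, h7]
  have : Nat.card {a : A // F (x * a) = -1 ∧ ¬ F a = -1} = Nat.card {a : A // F a = -1 ∧ ¬ F (x * a) = -1} := by omega
  rw [← this, hk]
  ring

/-- the overgroup `B ∪ fB` -/
def ext (B : Subgroup A) (f : A) (h1 : f * f ∈ B) (h2 : ∀ b ∈ B, f⁻¹ * b * f ∈ B) : Subgroup A where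
  carrier := {a | a ∈ B ∨ f⁻¹ * a ∈ B}
  mul_mem' := by
    rintro a a' (ha | ha) (ha' | ha')
    · exact Or.inl (mul_mem ha ha')
    · right
      have : f⁻¹ * (a * a') = (f⁻¹ * a * f) * (f⁻¹ * a') := by group
      rw [this]
      exact mul_mem (h2 a ha) ha'
    · right
      rw [← mul_assoc]
      exact mul_mem ha ha'
    · left
      have : a * a' = (f * f) * (f⁻¹ * (f⁻¹ * a) * f) * (f⁻¹ * a') := by group
      rw [this]
      exact mul_mem (mul_mem h1 (h2 _ ha)) ha'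
  one_mem' := Or.inl (one_mem B)
  inv_mem' := by
    rintro a (ha | ha)
    · exact Or.inl (inv_mem ha)
    · right
      have : f⁻¹ * a⁻¹ = (f⁻¹ * (f⁻¹ * a)⁻¹ * f) * (f * f)⁻¹ := by group
      rw [this]
      exact mul_mem (h2 _ (inv_mem ha)) (inv_mem h1)

theorem mem_ext {B : Subgroup A} {f : A} {h1 : f * f ∈ B} {h2 : ∀ b ∈ B, f⁻¹ * b * f ∈ B} {a : A} :
    a ∈ ext B f h1 h2 ↔ a ∈ B ∨ f⁻¹ * a ∈ B := Iff.rfl

theorem card_ext [Finite A] {B : Subgroup A} {f : A} {h1 : f * f ∈ B} {h2 : ∀ b ∈ B, f⁻¹ * b * f ∈ B} (hf : f ∉ B) :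
    Nat.card (ext B f h1 h2) = 2 * Nat.card B := by
  classical
  have e1 := card_split (fun a => a ∈ ext B f h1 h2) (fun a => a ∈ B)
  have e2 : Nat.card {a : A // a ∈ ext B f h1 h2 ∧ a ∈ B} = Nat.card B :=
    Nat.card_congr (Equiv.subtypeEquivRight (fun a => ⟨fun h => h.2, fun h => ⟨Or.inl h, h⟩⟩))
  have e3 : Nat.card {a : A // a ∈ ext B f h1 h2 ∧ ¬ a ∈ B} = Nat.card B := by
    apply card_map _ _ (Equiv.mulLeft f⁻¹)
    intro a
    show (a ∈ B ∨ f⁻¹ * a ∈ B) ∧ ¬ a ∈ B ↔ f⁻¹ * a ∈ B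
    constructor
    · rintro ⟨h | h, h'⟩
      · exact absurd h h'
      · exact h
    · intro h
      refine ⟨Or.inr h, fun h' => hf ?_⟩
      have : f = a * (f⁻¹ * a)⁻¹ := by group
      rw [this]; exact mul_mem h' (inv_mem h)
  have e4 : Nat.card (ext B f h1 h2) = Nat.card {a : A // a ∈ ext B f h1 h2} := rfl
  rw [e4, e1, e2, e3]; ring

/-- value of the new function -/
theorem ext_val {F : A → ℤˣ} {B : Subgroup A} (hc : Comp F B) {f : A} (h2 : ∀ b ∈ B, f⁻¹ * b * f ∈ B) (a : A) {b : A} (hb : b ∈ B) :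
    F (a * b) * F (a * b * f) = (F a * F (a * f)) * ((F b * F 1) * (F (f⁻¹ * b * f) * F 1)) := by
  have e : a * b * f = a * f * (f⁻¹ * b * f) := by group
  rw [e, hc a b hb, hc (a * f) _ (h2 b hb)]
  ac_rfl

theorem ext_val_one {F : A → ℤˣ} {B : Subgroup A} (hc : Comp F B) {f : A} (h2 : ∀ b ∈ B, f⁻¹ * b * f ∈ B) {b : A} (hb : b ∈ B) :
    (F b * F (b * f)) * (F 1 * F (1 * f)) = ((F b * F 1) * (F (f⁻¹ * b * f) * F 1)) := by
  have := ext_val hc h2 1 hb
  rw [one_mul] at this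
  rw [this]
  have h3 : (F 1 * F (1 * f)) * (F 1 * F (1 * f)) = 1 := Int.units_mul_self _
  calc (F 1 * F (1 * f)) * ((F b * F 1) * (F (f⁻¹ * b * f) * F 1)) * (F 1 * F (1 * f))
      = ((F 1 * F (1 * f)) * (F 1 * F (1 * f))) * ((F b * F 1) * (F (f⁻¹ * b * f) * F 1)) := by ac_rfl
    _ = _ := by rw [h3, one_mul]

theorem ext_val_f {F : A → ℤˣ} {B : Subgroup A} (hc : Comp F B) {f : A} (h1 : f * f ∈ B) (a : A) :
    F (a * f) * F (a * f * f) = (F a * F (a * f)) * (F (f * f) * F 1) := by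
  rw [mul_assoc a f f, hc a _ h1]
  ac_rfl

theorem comp_ext {F : A → ℤˣ} {B : Subgroup A} (hc : Comp F B) {f : A} (h1 : f * f ∈ B) (h2 : ∀ b ∈ B, f⁻¹ * b * f ∈ B) :
    Comp (fun a => F a * F (a * f)) (ext B f h1 h2) := by
  rintro a c (hb | hb)
  · show F (a * c) * F (a * c * f) = (F a * F (a * f)) * ((F c * F (c * f)) * (F 1 * F (1 * f)))
    rw [ext_val hc h2 a hb, ext_val_one hc h2 hb]
  · obtain ⟨b, hb', rfl⟩ : ∃ b ∈ B, c = f * b := ⟨f⁻¹ * c, hb, by group⟩
    show F (a * (f * b)) * F (a * (f * b) * f) = (F a * F (a * f)) * ((F (f * b) * F (f * b * f)) * (F 1 * F (1 * f)))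
    rw [← mul_assoc a f b, ext_val hc h2 (a * f) hb', ext_val hc h2 f hb']
    have h3 := ext_val_f hc h1 a
    have h4 := ext_val_f hc h1 1
    simp only [one_mul] at h4 ⊢
    rw [h3, h4]
    have h5 : F 1 * F f * (F 1 * F f) = 1 := Int.units_mul_self _
    calc F a * F (a * f) * (F (f * f) * F 1) * (F b * F 1 * (F (f⁻¹ * b * f) * F 1))
        = F a * F (a * f) * (F (f * f) * F 1) * (F b * F 1 * (F (f⁻¹ * b * f) * F 1)) * (F 1 * F f * (F 1 * F f)) := by
          rw [h5, mul_one]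
      _ = _ := by ac_rfl

theorem units_aux (u v : ℤˣ) : u * v = -1 ↔ u ≠ v := by revert u v; decide

theorem units_aux2 (u v u' v' : ℤˣ) (h : u * v = u' * v') : u ≠ v ↔ u' ≠ v' := by
  rw [← units_aux, ← units_aux, h]

/-- transitivity of the transfer, in the form of counting -/
theorem good_of_ext [Finite A] {F : A → ℤˣ} {B : Subgroup A} (hc : Comp F B) {f : A} (h1 : f * f ∈ B) (h2 : ∀ b ∈ B, f⁻¹ * b * f ∈ B) (hf : f ∉ B)
    (hg : Good (fun a => F a * F (a * f)) (ext B f h1 h2)) : Good F B := by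
  classical
  intro x
  have hD : ∀ a, ∀ b ∈ B, (F (x * (a * b)) ≠ F (a * b) ↔ F (x * a) ≠ F a) := by
    intro a b hb
    apply units_aux2
    rw [← mul_assoc, hc _ b hb, hc _ b hb]
    have := Int.units_mul_self (F b * F 1)
    calc F (x * a) * (F b * F 1) * (F a * (F b * F 1)) = F (x * a) * F a * ((F b * F 1) * (F b * F 1)) := by ac_rfl
      _ = _ := by rw [this, mul_one]
  have hDff : ∀ a, (F (x * (a * f * f)) ≠ F (a * f * f) ↔ F (x * a) ≠ F a) := by
    intro a
    rw [mul_assoc a f f]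
    exact hD a _ h1
  obtain ⟨k, hk⟩ := hg x
  simp only at hk
  have e1 := card_split (fun a => F (x * a) ≠ F a) (fun a => F (x * (a * f)) ≠ F (a * f))
  -- the both part
  obtain ⟨m, hm⟩ := card_dvd_of_inv (ext B f h1 h2) (fun a => F (x * a) ≠ F a ∧ F (x * (a * f)) ≠ F (a * f)) (by
    rintro a ⟨ha1, ha2⟩ c hcm
    have key : ∀ a, F (x * a) ≠ F a → F (x * (a * f)) ≠ F (a * f) → ∀ b ∈ B, F (x * (a * b)) ≠ F (a * b) ∧ F (x * (a * b * f)) ≠ F (a * b * f) := by
      intro a ha1 ha2 b hb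
      refine ⟨(hD a b hb).2 ha1, ?_⟩
      have e : a * b * f = a * f * (f⁻¹ * b * f) := by group
      rw [e]
      exact (hD (a * f) _ (h2 b hb)).2 ha2
    rcases hcm with hb | hb
    · exact key a ha1 ha2 c hb
    · have := key (a * f) ha2 ((hDff a).2 ha1) _ hb
      have e : a * f * (f⁻¹ * c) = a * c := by group
      rwa [e] at this)
  -- the other parts
  have e2 : Nat.card {a : A // F (x * a) * F (x * a * f) ≠ F a * F (a * f)} =
      Nat.card {a : A // F (x * a) ≠ F a ∧ ¬ F (x * (a * f)) ≠ F (a * f)} + Nat.card {a : A // F (x * a) ≠ F a ∧ ¬ F (x * (a * f)) ≠ F (a * f)} := by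
    have e3 := card_split (fun a => F (x * a) * F (x * a * f) ≠ F a * F (a * f)) (fun a => F (x * a) ≠ F a)
    rw [e3]
    have aux : ∀ u v u' v' : ℤˣ, (u * v ≠ u' * v' ∧ u ≠ u') ↔ (u ≠ u' ∧ ¬ v ≠ v') := by decide
    have aux' : ∀ u v u' v' : ℤˣ, (u * v ≠ u' * v' ∧ ¬ u ≠ u') ↔ (v ≠ v' ∧ ¬ u ≠ u') := by decide
    congr 1
    · apply Nat.card_congr (Equiv.subtypeEquivRight (fun a => ?_))
      rw [← mul_assoc x a f]
      exact aux _ _ _ _
    · apply card_map _ _ (Equiv.mulRight f)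
      intro a
      rw [aux']
      show _ ↔ F (x * (a * f)) ≠ F (a * f) ∧ ¬ F (x * (a * f * f)) ≠ F (a * f * f)
      rw [hDff a, mul_assoc x a f]
  rw [e2, card_ext hf] at hk
  rw [card_ext hf] at hm
  refine ⟨m + k, ?_⟩
  rw [e1, hm]
  have : Nat.card {a : A // F (x * a) ≠ F a ∧ ¬ F (x * (a * f)) ≠ F (a * f)} = 2 * Nat.card B * k := by
    have h5 : 2 * Nat.card {a : A // F (x * a) ≠ F a ∧ ¬ F (x * (a * f)) ≠ F (a * f)} = 2 * (2 * Nat.card B * k) := by
      rw [two_mul, hk]; ring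
    omega
  rw [this]; ring

/-- a normal subgroup `E` of a `2`-group not contained in `B` contains an element outside `B` normalizing `B` -/
theorem exists_normalizing [Finite A] (hA : IsPGroup 2 A) {E B : Subgroup A} (hE : E.Normal) (hEB : ¬ E ≤ B) :
    ∃ f ∈ E, f ∉ B ∧ ∀ b ∈ B, f⁻¹ * b * f ∈ B := by
  haveI : Fact (Nat.Prime 2) := ⟨Nat.prime_two⟩
  have hlt : B < E ⊔ B := by
    refine lt_of_le_of_ne le_sup_right ?_
    intro h
    exact hEB (h ▸ le_sup_left)
  have hnil : Group.IsNilpotent (E ⊔ B : Subgroup A) := (hA.to_subgroup _).isNilpotent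
  obtain ⟨n, hn1, hn2⟩ := SetLike.exists_of_lt (H1.Schmidt.lt_inf_normalizer hlt hnil)
  obtain ⟨hn3, hn4⟩ := hn1
  have hn5 : n ∈ B ⊔ E := by rw [sup_comm]; exact hn3
  obtain ⟨b, hb, e, he, hbe⟩ := Subgroup.mem_sup_of_normal_right.1 hn5
  refine ⟨e, he, ?_, ?_⟩
  · intro h
    apply hn2
    rw [← hbe]
    exact mul_mem hb h
  · have he' : e⁻¹ ∈ Subgroup.normalizer (B : Set A) := by
      apply inv_mem
      have : e = b⁻¹ * n := by rw [← hbe]; group
      rw [this]
      exact mul_mem (inv_mem (Subgroup.le_normalizer hb)) hn4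
    intro c hcB
    have := (Subgroup.mem_normalizer_iff.1 he' c).1 hcB
    rwa [inv_inv] at this

/-- the setting -/
structure Setting (E : Subgroup A) (z : A) : Prop where
  pg : IsPGroup 2 A
  nor : E.Normal
  mem : z ∈ E
  sq : z * z = 1
  zc : ∀ a, z * a = a * z
  comm : ∀ x ∈ E, ∀ y ∈ E, x * y = y * x ∨ x * y = z * (y * x)
  sqr : ∀ x ∈ E, x * x = 1 ∨ x * x = z

theorem aux_mul (u v w : ℤˣ) (h : u = w) : u * v = w * v := by rw [h]

section
variable [Finite A] {E B : Subgroup A} {z : A} {F : A → ℤˣ}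

omit [Finite A] in
theorem ext_trivial_of (hc : Comp F B) {f : A} (h1 : f * f ∈ B) (h2 : ∀ b ∈ B, f⁻¹ * b * f ∈ B)
    (hff : F (f * f) = F 1) {S : Subgroup A} (hSf : f ∈ S) (hS : ∀ b ∈ B, b ∈ S → F (f⁻¹ * b * f) = F b) :
    ∀ c ∈ ext B f h1 h2, c ∈ S → (fun a => F a * F (a * f)) c = (fun a => F a * F (a * f)) 1 := by
  have key : ∀ b ∈ B, b ∈ S → F b * F (b * f) = F 1 * F (1 * f) := by
    intro b hb hbS
    have h3 := ext_val_one hc h2 hb
    rw [hS b hb hbS, Int.units_mul_self] at h3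
    have h4 : ∀ u v : ℤˣ, u * v = 1 → u = v := by decide
    exact h4 _ _ h3
  rintro c (hb | hb) hcS
  · exact key c hb hcS
  · have h3 := comp_ext hc h1 h2 f (f⁻¹ * c) (Or.inl hb)
    have e : f * (f⁻¹ * c) = c := by group
    simp only [e] at h3
    show F c * F (c * f) = F 1 * F (1 * f)
    rw [h3]
    have h4 := key (f⁻¹ * c) hb (mul_mem (inv_mem hSf) hcS)
    rw [h4, Int.units_mul_self, mul_one]
    have h5 := ext_val_f hc h1 1
    rw [one_mul] at h5 ⊢
    rw [h5, hff, Int.units_mul_self, mul_one]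

/-- `z ∉ B` -/
theorem good_of_not_mem (hs : Setting E z) (hc : Comp F B) (hz : z ∉ B) : Good F B := by
  have h1 : z * z ∈ B := by rw [hs.sq]; exact one_mem _
  have e : ∀ b, z⁻¹ * b * z = b := by
    intro b; rw [mul_assoc, ← hs.zc b]; group
  have h2 : ∀ b ∈ B, z⁻¹ * b * z ∈ B := by
    intro b hb; rwa [e]
  apply good_of_ext hc h1 h2 hz
  apply good_of_trivial (comp_ext hc h1 h2)
  intro c hcm
  exact ext_trivial_of hc h1 h2 (by rw [hs.sq]) (S := ⊤) trivial (fun b _ _ => by rw [e]) c hcm trivial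

/-- level zero: `ϕ` is trivial on `E ∩ B` -/
theorem good_level0 (hs : Setting E z) (hc : Comp F B) (hEB : ¬ E ≤ B) (hz : z ∈ B) (h0 : ∀ y ∈ E, y ∈ B → F y = F 1) : Good F B := by
  obtain ⟨f, hfE, hfB, h2⟩ := exists_normalizing hs.pg hs.nor hEB
  have hff : f * f ∈ B := by
    rcases hs.sqr f hfE with h | h <;> rw [h]
    · exact one_mem _
    · exact hz
  apply good_of_ext hc hff h2 hfB
  apply good_of_trivial (comp_ext hc hff h2)
  intro c hcm
  refine ext_trivial_of hc hff h2 (h0 _ (mul_mem hfE hfE) hff) (S := ⊤) trivial (fun b hb _ => ?_) c hcm trivial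
  have e : f⁻¹ * b * f = b * (b⁻¹ * f⁻¹ * b * f) := by group
  have hy : b⁻¹ * f⁻¹ * b * f ∈ E := by
    refine mul_mem ?_ hfE
    have := hs.nor.conj_mem f⁻¹ (inv_mem hfE) b⁻¹
    rwa [inv_inv] at this
  have hyB : b⁻¹ * f⁻¹ * b * f ∈ B := by
    have : b⁻¹ * f⁻¹ * b * f = b⁻¹ * (f⁻¹ * b * f) := by group
    rw [this]
    exact mul_mem (inv_mem hb) (h2 b hb)
  rw [e, hc b _ hyB, h0 _ hy hyB, Int.units_mul_self, mul_one]

theorem card_inf_ext {f : A} (h1 : f * f ∈ B) (h2 : ∀ b ∈ B, f⁻¹ * b * f ∈ B) (hfE : f ∈ E) :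
    Nat.card (E ⊓ ext B f h1 h2 : Subgroup A) ≤ 2 * Nat.card (E ⊓ B : Subgroup A) := by
  classical
  have e1 := card_split (fun a => a ∈ E ⊓ ext B f h1 h2) (fun a => a ∈ B)
  have e2 : Nat.card {a : A // a ∈ E ⊓ ext B f h1 h2 ∧ a ∈ B} = Nat.card (E ⊓ B : Subgroup A) :=
    Nat.card_congr (Equiv.subtypeEquivRight (fun a => ⟨fun h => ⟨h.1.1, h.2⟩, fun h => ⟨⟨h.1, Or.inl h.2⟩, h.2⟩⟩))
  have e3 : Nat.card {a : A // a ∈ E ⊓ ext B f h1 h2 ∧ ¬ a ∈ B} ≤ Nat.card (E ⊓ B : Subgroup A) := by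
    have inj : Function.Injective (fun a : {a : A // a ∈ E ⊓ ext B f h1 h2 ∧ ¬ a ∈ B} =>
        (⟨f⁻¹ * a, Subgroup.mem_inf.2 ⟨mul_mem (inv_mem hfE) a.2.1.1, by
          rcases a.2.1.2 with h | h
          · exact absurd h a.2.2
          · exact h⟩⟩ : (E ⊓ B : Subgroup A))) := by
      intro a b hab
      apply Subtype.ext
      have := Subtype.ext_iff.1 hab
      exact mul_left_cancel this
    exact Nat.card_le_card_of_injective _ inj
  have e4 : Nat.card (E ⊓ ext B f h1 h2 : Subgroup A) = Nat.card {a : A // a ∈ E ⊓ ext B f h1 h2} := rfl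
  rw [e4, e1, e2]; omega

omit [Finite A] in
theorem inv_conj_eq (hs : Setting E z) {f y : A} (hf : f ∈ E) (hy : y ∈ E) : f⁻¹ * y * f = y ∨ f⁻¹ * y * f = y * z := by
  rcases hs.comm f hf y hy with h | h
  · left
    rw [mul_assoc, ← h]; group
  · right
    have h3 : y * f = z * (f * y) := by
      rw [h, ← mul_assoc, hs.sq, one_mul]
    calc f⁻¹ * y * f = f⁻¹ * (y * f) := by group
      _ = f⁻¹ * (z * f) * y := by rw [h3]; group
      _ = f⁻¹ * (f * z) * y := by rw [hs.zc f]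
      _ = z * y := by group
      _ = y * z := hs.zc y

/-- level one: `ϕ(z) = 1` and `|E : E ∩ B| ≥ 4` -/
theorem good_level1 (hs : Setting E z) (hc : Comp F B) (hz : z ∈ B) (h4 : 4 * Nat.card (E ⊓ B : Subgroup A) ≤ Nat.card E)
    (h0 : F z = F 1) : Good F B := by
  have hEB : ¬ E ≤ B := by
    intro h
    rw [inf_eq_left.2 h] at h4
    have := Nat.card_pos (α := E)
    omega
  obtain ⟨f, hfE, hfB, h2⟩ := exists_normalizing hs.pg hs.nor hEB
  have hff : f * f ∈ B := by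
    rcases hs.sqr f hfE with h | h <;> rw [h]
    · exact one_mem _
    · exact hz
  have hffv : F (f * f) = F 1 := by
    rcases hs.sqr f hfE with h | h <;> rw [h]
    exact h0
  apply good_of_ext hc hff h2 hfB
  apply good_level0 hs (comp_ext hc hff h2) _ (Or.inl hz)
  · intro y hyE hyB
    refine ext_trivial_of hc hff h2 hffv (S := E) hfE (fun b hb hbE => ?_) y hyB hyE
    rcases inv_conj_eq hs hfE hbE with h | h
    · rw [h]
    · rw [h, hc b z hz, h0, Int.units_mul_self, mul_one]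
  · intro h
    have h5 := card_inf_ext (E := E) hff h2 hfE
    rw [inf_eq_left.2 h] at h5
    have : 0 < Nat.card (E ⊓ B : Subgroup A) := Nat.card_pos
    omega

/-- level two: `|E : E ∩ B| ≥ 8` -/
theorem good_level2 (hs : Setting E z) (hc : Comp F B) (hz : z ∈ B) (h4 : 8 * Nat.card (E ⊓ B : Subgroup A) ≤ Nat.card E) : Good F B := by
  have hEB : ¬ E ≤ B := by
    intro h
    rw [inf_eq_left.2 h] at h4
    have := Nat.card_pos (α := E)
    omega
  obtain ⟨f, hfE, hfB, h2⟩ := exists_normalizing hs.pg hs.nor hEB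
  have hff : f * f ∈ B := by
    rcases hs.sqr f hfE with h | h <;> rw [h]
    · exact one_mem _
    · exact hz
  apply good_of_ext hc hff h2 hfB
  apply good_level1 hs (comp_ext hc hff h2) (Or.inl hz)
  · have h5 := card_inf_ext (E := E) hff h2 hfE
    omega
  · show F z * F (z * f) = F 1 * F (1 * f)
    have e : f⁻¹ * z * f = z := by rw [mul_assoc, hs.zc f]; group
    have h3 := ext_val_one hc h2 hz
    rw [e, Int.units_mul_self] at h3
    have h4 : ∀ u v : ℤˣ, u * v = 1 → u = v := by decide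
    exact h4 _ _ h3

end

end Cfsg.Agent.H19.Level
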