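import Mathlib
import Cfsg.Agent.H19_Level

/-! From the counting form of transfer to the nonexistence of `O²(G) = G` (helper19). -/

set_option autoImplicit false

namespace Cfsg.Agent.H19.Level

open MulAction

variable {G : Type*} [Group G]

/-- the stabilizer in `T` of the coset `gH` -/
def stab (H T : Subgroup G) (g : G) : Subgroup T where
  carrier := {b | g⁻¹ * (b : G) * g ∈ H}
  mul_mem' := by
    intro a b ha hb
    have e : g⁻¹ * ((a * b : T) : G) * g = (g⁻¹ * (a : G) * g) * (g⁻¹ * (b : G) * g) := by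
      rw [Subgroup.coe_mul]; group
    show g⁻¹ * ((a * b : T) : G) * g ∈ H
    rw [e]; exact mul_mem ha hb
  one_mem' := by
    show g⁻¹ * ((1 : T) : G) * g ∈ H
    simp
  inv_mem' := by
    intro a ha
    have e : g⁻¹ * ((a⁻¹ : T) : G) * g = (g⁻¹ * (a : G) * g)⁻¹ := by
      rw [Subgroup.coe_inv]; group
    show g⁻¹ * ((a⁻¹ : T) : G) * g ∈ H
    rw [e]; exact inv_mem ha

theorem mem_stab {H T : Subgroup G} {g : G} {b : T} : b ∈ stab H T g ↔ g⁻¹ * (b : G) * g ∈ H := Iff.rfl

/-- If all partial transfers other than the trivial one vanish, then `G` has a subgroup of index two. -/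
theorem false_of_good [Finite G] (hG : ∀ K : Subgroup G, K.index ≠ 2) {H N : Subgroup G} (h2 : (N.subgroupOf H).index = 2)
    {T : Subgroup G} (hTH : T ≤ H) {x : G} (hxT : x ∈ T) (hxN : x ∉ N)
    (hgood : ∀ g : G, g ∉ H → ∀ F : T → ℤˣ, Comp F (stab H T g) →
      (∀ b : T, g⁻¹ * (b : G) * g ∈ H → (F b = F 1 ↔ g⁻¹ * (b : G) * g ∈ N)) → Good F (stab H T g)) : False := by
  classical
  haveI : Fintype (G ⧸ H) := Fintype.ofFinite _
  obtain ⟨sg, hsg⟩ : ∃ sg, sg = Transfer.sgn (N.subgroupOf H) h2 := ⟨_, rfl⟩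
  have hout : ∀ q : G ⧸ H, (((q.out : G)) : G ⧸ H) = q := fun q => QuotientGroup.out_eq' q
  have hmem : ∀ g : G, ((g : G ⧸ H)).out⁻¹ * g ∈ H := by
    intro g
    rw [← QuotientGroup.eq]; exact hout _
  -- the function
  let F : G → ℤˣ := fun g => sg ⟨((g : G ⧸ H)).out⁻¹ * g, hmem g⟩
  have hF : ∀ g (h : G) (hh : h ∈ H), F (g * h) = F g * sg ⟨h, hh⟩ := by
    intro g h hh
    have e : ((g * h : G) : G ⧸ H) = (g : G ⧸ H) := by
      rw [QuotientGroup.eq]; simpa using inv_mem hh
    show sg ⟨((g * h : G) : G ⧸ H).out⁻¹ * (g * h), hmem (g * h)⟩ = sg ⟨((g : G ⧸ H)).out⁻¹ * g, hmem g⟩ * sg ⟨h, hh⟩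
    rw [← map_mul]
    congr 1
    apply Subtype.ext
    show ((g * h : G) : G ⧸ H).out⁻¹ * (g * h) = ((g : G ⧸ H)).out⁻¹ * g * h
    rw [e, mul_assoc]
  have hFout : ∀ q : G ⧸ H, F q.out = 1 := by
    intro q
    have e : (⟨((q.out : G) : G ⧸ H).out⁻¹ * q.out, hmem q.out⟩ : ↥H) = 1 := by
      apply Subtype.ext
      show ((q.out : G) : G ⧸ H).out⁻¹ * q.out = 1
      rw [hout q, inv_mul_cancel]
    show sg ⟨((q.out : G) : G ⧸ H).out⁻¹ * q.out, hmem q.out⟩ = 1
    rw [e, map_one]
  -- D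
  let P : G ⧸ H → Prop := fun q => F (x * q.out) ≠ F q.out
  have hP : ∀ g : G, P (g : G ⧸ H) ↔ F (x * g) ≠ F g := by
    intro g
    have e : g = ((g : G ⧸ H)).out * (((g : G ⧸ H)).out⁻¹ * g) := by group
    have e1 : F g = F ((g : G ⧸ H)).out * sg ⟨_, hmem g⟩ := by
      conv_lhs => rw [e]
      exact hF _ _ (hmem g)
    have e2 : F (x * g) = F (x * ((g : G ⧸ H)).out) * sg ⟨_, hmem g⟩ := by
      conv_lhs => rw [e, ← mul_assoc]
      exact hF _ _ (hmem g)
    rw [e1, e2]
    show F (x * ((g : G ⧸ H)).out) ≠ F ((g : G ⧸ H)).out ↔ _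
    generalize sg ⟨_, hmem g⟩ = w
    generalize F (x * ((g : G ⧸ H)).out) = u
    generalize F ((g : G ⧸ H)).out = v
    revert u v w
    decide
  -- the transfer
  have hV : MonoidHom.transfer sg x = (-1) ^ (Finset.univ.filter P).card := by
    rw [Mackey.transfer_eq_prod sg Quotient.out hout x]
    have h3 : ∀ q : G ⧸ H, sg ⟨(x • q).out⁻¹ * x * q.out, Mackey.mem_sec hout x q⟩ = if P q then -1 else 1 := by
      intro q
      have e : F (x * q.out) = sg ⟨(x • q).out⁻¹ * x * q.out, Mackey.mem_sec hout x q⟩ := by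
        have e1 : ((x * q.out : G) : G ⧸ H) = x • q := by
          conv_rhs => rw [← hout q]
          rfl
        show sg ⟨((x * q.out : G) : G ⧸ H).out⁻¹ * (x * q.out), hmem _⟩ = _
        congr 1
        apply Subtype.ext
        show ((x * q.out : G) : G ⧸ H).out⁻¹ * (x * q.out) = (x • q).out⁻¹ * x * q.out
        rw [e1, mul_assoc]
      rw [← e]
      by_cases h : P q
      · rw [if_pos h]
        have h' : F (x * q.out) ≠ F q.out := h
        rw [hFout] at h'
        exact (Int.units_eq_one_or _).resolve_left h'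
      · rw [if_neg h]
        have h' : ¬ F (x * q.out) ≠ F q.out := h
        rw [hFout, not_not] at h'
        exact h'
    rw [Finset.prod_congr rfl (fun q _ => h3 q), Finset.prod_ite, Finset.prod_const_one, mul_one, Finset.prod_const]
  -- oddness
  suffices hodd : Odd (Finset.univ.filter P).card by
    rw [hodd.neg_one_pow, hsg] at hV
    exact hG _ (Transfer.index_ker _ hV)
  -- the base point
  have hxH : x ∈ H := hTH hxT
  let q0 : G ⧸ H := ((1 : G) : G ⧸ H)
  have hq0 : P q0 := by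
    rw [hP]
    intro h
    apply hxN
    have h3 := hF 1 x hxH
    rw [mul_one] at h
    rw [one_mul, h] at h3
    have h4 : sg ⟨x, hxH⟩ = 1 := mul_eq_left.1 h3.symm
    rw [hsg, Transfer.sgn_eq_one_iff, Subgroup.mem_subgroupOf] at h4
    exact h4
  have hcard : (Finset.univ.filter P).card = ((Finset.univ.filter P).erase q0).card + 1 := by
    rw [Finset.card_erase_add_one]
    rw [Finset.mem_filter]; exact ⟨Finset.mem_univ _, hq0⟩
  rw [hcard]
  apply Even.add_one
  -- partition by T-orbits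
  let Q := MulAction.orbitRel.Quotient T (G ⧸ H)
  let π : G ⧸ H → Q := fun q => Quotient.mk (MulAction.orbitRel T (G ⧸ H)) q
  haveI : Fintype Q := Fintype.ofFinite _
  rw [Finset.card_eq_sum_card_fiberwise (f := π) (t := Finset.univ) (fun _ _ => Finset.mem_univ _)]
  apply Finset.even_sum
  intro ω _
  by_cases hne : (((Finset.univ.filter P).erase q0).filter (fun q => π q = ω)).Nonempty
  swap
  · rw [Finset.not_nonempty_iff_eq_empty] at hne
    rw [hne]; simp
  obtain ⟨q1, hq1⟩ := hne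
  rw [Finset.mem_filter, Finset.mem_erase, Finset.mem_filter] at hq1
  obtain ⟨⟨hq1n, -, hq1P⟩, hq1ω⟩ := hq1
  obtain ⟨g, rfl⟩ := QuotientGroup.mk_surjective q1
  have hgH : g ∉ H := by
    intro h
    apply hq1n
    show (g : G ⧸ H) = ((1 : G) : G ⧸ H)
    rw [QuotientGroup.eq]; simpa using inv_mem h
  -- apply goodness
  let Fg : T → ℤˣ := fun a => F ((a : G) * g)
  have hFg : ∀ (a b : T) (hb : g⁻¹ * (b : G) * g ∈ H), Fg (a * b) = Fg a * sg ⟨_, hb⟩ := by
    intro a b hb
    have := hF ((a : G) * g) _ hb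
    rw [← this]
    show F (((a * b : T) : G) * g) = _
    congr 1
    rw [Subgroup.coe_mul]; group
  have hFg1 : ∀ (b : T) (hb : g⁻¹ * (b : G) * g ∈ H), Fg b = Fg 1 * sg ⟨_, hb⟩ := by
    intro b hb
    have := hFg 1 b hb
    rwa [one_mul] at this
  have hcomp : Comp Fg (stab H T g) := by
    intro a b hb
    rw [hFg a b hb, hFg1 b hb]
    congr 1
    have := Int.units_mul_self (Fg 1)
    calc sg ⟨_, hb⟩ = (Fg 1 * Fg 1) * sg ⟨_, hb⟩ := by rw [this, one_mul]
      _ = _ := by ac_rfl
  have hg1 := hgood g hgH Fg hcomp (by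
    intro b hb
    rw [hFg1 b hb, mul_eq_left, hsg, Transfer.sgn_eq_one_iff, Subgroup.mem_subgroupOf]) ⟨x, hxT⟩
  -- count
  have hcount : Nat.card {a : T // Fg (⟨x, hxT⟩ * a) ≠ Fg a} =
      Nat.card (stab H T g) * (((Finset.univ.filter P).erase q0).filter (fun q => π q = ω)).card := by
    haveI : Fintype T := Fintype.ofFinite _
    rw [Nat.card_eq_fintype_card, Fintype.card_subtype]
    rw [Finset.card_eq_sum_card_fiberwise (f := fun a : T => ((((a : G) * g : G)) : G ⧸ H))
      (t := (((Finset.univ.filter P).erase q0).filter (fun q => π q = ω)))]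
    · rw [mul_comm, ← smul_eq_mul, ← Finset.sum_const]
      apply Finset.sum_congr rfl
      intro q hq
      rw [Finset.mem_filter, Finset.mem_erase, Finset.mem_filter] at hq
      obtain ⟨⟨hqn, -, hqP⟩, hqω⟩ := hq
      have hrel : (MulAction.orbitRel T (G ⧸ H)) q (g : G ⧸ H) := by
        apply Quotient.exact
        exact hqω.trans hq1ω.symm
      rw [MulAction.orbitRel_apply] at hrel
      obtain ⟨a0, ha0⟩ := hrel
      have ha0' : (((a0 : G) * g : G) : G ⧸ H) = q := ha0
      rw [Finset.filter_filter, ← Fintype.card_subtype, ← Nat.card_eq_fintype_card]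
      apply Nat.card_congr
      refine (Equiv.subtypeEquiv (Equiv.mulLeft a0⁻¹) ?_)
      intro a
      show (Fg (⟨x, hxT⟩ * a) ≠ Fg a ∧ (((a : G) * g : G) : G ⧸ H) = q) ↔ g⁻¹ * ((a0⁻¹ * a : T) : G) * g ∈ H
      have e : g⁻¹ * ((a0⁻¹ * a : T) : G) * g = ((a0 : G) * g)⁻¹ * ((a : G) * g) := by
        rw [Subgroup.coe_mul, Subgroup.coe_inv]; group
      rw [e, ← QuotientGroup.eq, ha0']
      constructor
      · rintro ⟨_, h⟩; exact h.symm
      · intro h
        refine ⟨?_, h.symm⟩
        have h5 := (hP ((a : G) * g)).1 (h ▸ hqP)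
        have e2 : Fg (⟨x, hxT⟩ * a) = F (x * ((a : G) * g)) := by
          show F (((⟨x, hxT⟩ * a : T) : G) * g) = _
          rw [Subgroup.coe_mul, mul_assoc]
        rw [e2]
        exact h5
    · intro a ha
      rw [Finset.mem_coe, Finset.mem_filter] at ha
      rw [Finset.mem_coe, Finset.mem_filter, Finset.mem_erase, Finset.mem_filter]
      have e2 : Fg (⟨x, hxT⟩ * a) = F (x * ((a : G) * g)) := by
        show F (((⟨x, hxT⟩ * a : T) : G) * g) = _
        rw [Subgroup.coe_mul, mul_assoc]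
      refine ⟨⟨?_, Finset.mem_univ _, ?_⟩, ?_⟩
      · intro h
        apply hgH
        have h6 := QuotientGroup.eq.1 (show ((((a : G) * g : G)) : G ⧸ H) = ((1 : G) : G ⧸ H) from h)
        rw [mul_one] at h6
        have h7 := inv_mem h6
        rw [inv_inv] at h7
        exact (Subgroup.mul_mem_cancel_left H (hTH a.2)).1 h7
      · rw [hP, ← e2]; exact ha.2
      · rw [← hq1ω]
        apply Quotient.sound
        show (MulAction.orbitRel T (G ⧸ H)) _ _
        rw [MulAction.orbitRel_apply]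
        exact ⟨a, rfl⟩
  rw [hcount] at hg1
  obtain ⟨k, hk⟩ := hg1
  have hpos : 0 < Nat.card (stab H T g) := Nat.card_pos
  refine ⟨k, ?_⟩
  have : Nat.card (stab H T g) * (((Finset.univ.filter P).erase q0).filter (fun q => π q = ω)).card =
      Nat.card (stab H T g) * (k + k) := by rw [hk]; ring
  exact Nat.eq_of_mul_eq_mul_left hpos this

end Cfsg.Agent.H19.Level
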