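import Mathlib

/-! Elementary lemmas on elements of order prime to `p` acting by conjugation. -/

set_option autoImplicit false

namespace Cfsg.Agent.H19.Odd

open Subgroup

variable {G : Type*} [Group G]

theorem conj_pow_eq {g x w : G} (h : g * x * g⁻¹ = x * w) (hw : Commute g w) (k : ℕ) :
    g ^ k * x * (g ^ k)⁻¹ = x * w ^ k := by
  induction k with
  | zero => simp
  | succ k ih =>
    calc g ^ (k + 1) * x * (g ^ (k + 1))⁻¹ = g * (g ^ k * x * (g ^ k)⁻¹) * g⁻¹ := by rw [pow_succ']; group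
      _ = g * (x * w ^ k) * g⁻¹ := by rw [ih]
      _ = (g * x * g⁻¹) * (g * w ^ k * g⁻¹) := by group
      _ = (x * w) * w ^ k := by rw [h, (hw.pow_right k).eq]; group
      _ = x * w ^ (k + 1) := by rw [pow_succ']; group

/-- stability: `g x g⁻¹ = x w`, `g` commutes with `w`, coprime orders: `g` commutes with `x`. -/
theorem commute_of_conj {g x w : G} (h : g * x * g⁻¹ = x * w) (hw : Commute g w)
    (hcop : (orderOf g).Coprime (orderOf w)) : Commute g x := by
  have h1 := conj_pow_eq h hw (orderOf g)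
  rw [pow_orderOf_eq_one, one_mul, inv_one, mul_one] at h1
  have h2 : w ^ orderOf g = 1 := (mul_eq_left.1 h1.symm)
  have h3 : orderOf w = 1 := Nat.eq_one_of_dvd_coprimes hcop.symm dvd_rfl (orderOf_dvd_of_pow_eq_one h2)
  have h4 : w = 1 := orderOf_eq_one_iff.1 h3
  rw [h4, mul_one] at h
  exact mul_inv_eq_iff_eq_mul.1 h

/-- an element of odd order interchanging at most two elements fixes them -/
theorem commute_of_sq {g w : G} (hg : (orderOf g).Coprime 2) (h : Commute (g * g) w) : Commute g w := by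
  have h1 : g ∈ zpowers (g ^ 2) := by
    have : Nat.Coprime 2 (orderOf g) := hg.symm
    obtain ⟨m, hm⟩ := exists_pow_eq_self_of_coprime (x := g) this
    have h2 : (g ^ 2) ^ m ∈ zpowers (g ^ 2) := npow_mem_zpowers _ m
    rwa [hm] at h2
  obtain ⟨k, hk⟩ := mem_zpowers_iff.1 h1
  rw [sq] at hk
  rw [← hk]
  exact h.zpow_left k

/-- an element of order prime to `p` normalising a cyclic `p`-group of order `p^t`, `p = 2`, centralises it -/
theorem commute_of_mem_zpowers {g c : G} (hg : (orderOf g).Coprime 2) {t : ℕ} (hc : orderOf c = 2 ^ t)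
    (h : g * c * g⁻¹ ∈ zpowers c) : Commute g c := by
  obtain ⟨k, hk⟩ := mem_zpowers_iff.1 h
  have h1 : ∀ j : ℕ, g ^ j * c * (g ^ j)⁻¹ = c ^ (k ^ j) := by
    intro j
    induction j with
    | zero => simp
    | succ j ih =>
      calc g ^ (j + 1) * c * (g ^ (j + 1))⁻¹ = g * (g ^ j * c * (g ^ j)⁻¹) * g⁻¹ := by rw [pow_succ']; group
        _ = g * c ^ (k ^ j) * g⁻¹ := by rw [ih]
        _ = (g * c * g⁻¹) ^ (k ^ j) := by rw [conj_zpow]
        _ = c ^ (k ^ (j + 1)) := by rw [← hk, ← zpow_mul, pow_succ']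
  by_cases hm0 : orderOf g = 0
  · rw [hm0] at hg; norm_num at hg
  have h2 := h1 (orderOf g)
  rw [pow_orderOf_eq_one, one_mul, inv_one, mul_one] at h2
  have h3 : c ^ (k ^ (orderOf g) - 1) = 1 := by
    rw [zpow_sub, ← h2, zpow_one, mul_inv_cancel]
  have h4 : ((2 ^ t : ℕ) : ℤ) ∣ k ^ (orderOf g) - 1 := by
    rw [← hc]; exact orderOf_dvd_iff_zpow_eq_one.2 h3
  have h5 : ((k : ℤ) : ZMod (2 ^ t)) ^ (orderOf g) = 1 := by
    have := (ZMod.intCast_zmod_eq_zero_iff_dvd _ (2 ^ t)).2 h4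
    push_cast at this
    exact sub_eq_zero.1 this
  -- k is a unit of odd order in ZMod (2^t)
  have h6 : (orderOf ((k : ℤ) : ZMod (2 ^ t))) ∣ orderOf g := orderOf_dvd_of_pow_eq_one h5
  have hu : IsUnit ((k : ℤ) : ZMod (2 ^ t)) := IsUnit.of_pow_eq_one h5 hm0
  obtain ⟨u, hu⟩ := hu
  have h7 : orderOf u ∣ orderOf g := by
    rw [← orderOf_units, hu]; exact h6
  have h8 : orderOf u ∣ 2 ^ t := by
    haveI : NeZero (2 ^ t) := ⟨by positivity⟩
    have h9 : orderOf u ∣ Nat.card (ZMod (2 ^ t))ˣ := orderOf_dvd_natCard u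
    rw [Nat.card_eq_fintype_card, ZMod.card_units_eq_totient] at h9
    rcases Nat.eq_zero_or_pos t with rfl | ht
    · simpa using h9
    · rw [Nat.totient_prime_pow Nat.prime_two ht] at h9
      simp only [Nat.add_one_sub_one, mul_one] at h9
      exact h9.trans (pow_dvd_pow 2 (by omega))
  have h10 : orderOf u = 1 := Nat.eq_one_of_dvd_coprimes (hg.pow_right t) h7 h8
  have h11 : ((k : ℤ) : ZMod (2 ^ t)) = 1 := by
    rw [← hu, orderOf_eq_one_iff.1 h10]; rfl
  have h12 : ((2 ^ t : ℕ) : ℤ) ∣ k - 1 := by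
    rw [← ZMod.intCast_zmod_eq_zero_iff_dvd]
    push_cast
    rw [h11]; ring
  rw [← hc, orderOf_dvd_iff_zpow_eq_one, zpow_sub, zpow_one, mul_inv_eq_one] at h12
  rw [h12] at hk
  exact mul_inv_eq_iff_eq_mul.1 hk.symm

end Cfsg.Agent.H19.Odd
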