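import Mathlib
import Cfsg.Agent.H2_PCons

/-! `p`-constrained local subgroups (helper19). -/

set_option autoImplicit false

open Subgroup Cfsg

namespace Cfsg.Agent.H19.PC

universe u

open Cfsg.Agent.H2.PCons

variable {p : ℕ} [hp : Fact p.Prime]

theorem pc_of_equiv {X Y : Type u} [Group X] [Group Y] [Finite X] (e : X ≃* Y) (h : IsPConstrained p X) : IsPConstrained p Y := by
  haveI : Finite Y := Finite.of_equiv X e.toEquiv
  have hK := Cfsg.Agent.H1.Nilp.pPrimeCore_coprime (G := Y) p
  haveI hKn := Cfsg.Agent.H1.Nilp.pPrimeCore_normal (G := Y) p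
  let f : X →* Y ⧸ pPrimeCore p Y := (QuotientGroup.mk' (pPrimeCore p Y)).comp e.toMonoidHom
  have hf : Function.Surjective f := (QuotientGroup.mk'_surjective _).comp e.surjective
  have hker : (Nat.card f.ker).Coprime p := by
    have h1 : Nat.card f.ker ∣ Nat.card (pPrimeCore p Y) := by
      have h2 : f.ker.map e.toMonoidHom ≤ pPrimeCore p Y := by
        rintro _ ⟨x, hx, rfl⟩
        exact (QuotientGroup.eq_one_iff _).1 (MonoidHom.mem_ker.1 hx)
      have h3 : Nat.card (f.ker.map e.toMonoidHom) = Nat.card f.ker :=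
        Nat.card_congr (f.ker.equivMapOfInjective _ e.injective).symm.toEquiv
      rw [← h3]
      exact Subgroup.card_dvd_of_le h2
    exact hK.coprime_dvd_left h1
  rw [pc_iff_quotient]
  exact (pc_iff f hf hker (Cfsg.Agent.H11.Cores.pPrimeCore_quotient p)).1 h

/-- If `T` is a normal `p`-subgroup with `p`-constrained centralizer then the group is `p`-constrained. -/
theorem pc_of_centralizer {N : Type u} [Group N] [Finite N] (T : Subgroup N) [hTn : T.Normal] (hT : IsPGroup p T)
    (hC : IsPConstrained p ↥(centralizer (T : Set N))) : IsPConstrained p N := by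
  have hK := Cfsg.Agent.H1.Nilp.pPrimeCore_coprime (G := N) p
  haveI hKn := Cfsg.Agent.H1.Nilp.pPrimeCore_normal (G := N) p
  rw [pc_iff_quotient]
  have hbotY := Cfsg.Agent.H11.Cores.pPrimeCore_quotient (G := N) p
  set K := pPrimeCore p N with hKdef
  have hKT : K ⊓ T = ⊥ := by
    rw [← Subgroup.card_eq_one]
    have h1 : Nat.card (K ⊓ T : Subgroup N) ∣ Nat.card K := Subgroup.card_dvd_of_le inf_le_left
    have h2 : Nat.card (K ⊓ T : Subgroup N) ∣ Nat.card T := Subgroup.card_dvd_of_le inf_le_right
    obtain ⟨k, hk⟩ := (IsPGroup.iff_card).1 hT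
    have h3 : Nat.Coprime (Nat.card K) (Nat.card T) := by
      rw [hk]; exact hK.pow_right k
    exact Nat.eq_one_of_dvd_coprimes h3 h1 h2
  haveI hCn : (centralizer (T : Set N)).Normal := inferInstance
  -- the key: modulo K centralizing is centralizing
  have key : ∀ x : N, (∀ t ∈ T, x * t * x⁻¹ * t⁻¹ ∈ K) → x ∈ centralizer (T : Set N) := by
    intro x hx
    rw [mem_centralizer_iff]
    intro t ht
    have h1 : x * t * x⁻¹ * t⁻¹ ∈ T := mul_mem (hTn.conj_mem t ht x) (inv_mem ht)
    have h2 : x * t * x⁻¹ * t⁻¹ ∈ K ⊓ T := ⟨hx t ht, h1⟩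
    rw [hKT, mem_bot] at h2
    calc t * x = (x * t * x⁻¹ * t⁻¹) * (t * x) := by rw [h2, one_mul]
      _ = x * t := by group
  have hKC : K ≤ centralizer (T : Set N) := by
    intro x hx
    apply key
    intro t ht
    have : x * t * x⁻¹ * t⁻¹ = x * (t * x⁻¹ * t⁻¹) := by group
    rw [this]
    refine mul_mem hx ?_
    exact hKn.conj_mem _ (inv_mem hx) t
  let f := QuotientGroup.mk' K
  let D : Subgroup (N ⧸ K) := (centralizer (T : Set N)).map f
  haveI hDn : D.Normal := hCn.map f (QuotientGroup.mk'_surjective K)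
  have hres : ∀ x ∈ centralizer (T : Set N), (x : N ⧸ K) ∈ D := fun x hx => ⟨x, hx, rfl⟩
  let fC := resHom K (centralizer (T : Set N)) D hres
  have hfC : Function.Surjective fC := by
    rintro ⟨y, x, hx, rfl⟩
    exact ⟨⟨x, hx⟩, rfl⟩
  have hkerC : fC.ker = K.subgroupOf (centralizer (T : Set N)) := ker_resHom _ _ _ _
  have hkc : (Nat.card fC.ker).Coprime p := by rw [hkerC]; exact coprime_subgroupOf _ hK
  have hbotD : pPrimeCore p D = ⊥ := by
    have h1 : (pPrimeCore p D).map D.subtype ≤ pPrimeCore p (N ⧸ K) := by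
      haveI : (pPrimeCore p D).Characteristic := Cfsg.Agent.H11.Cores.pPrimeCore_characteristic p
      apply Cfsg.Agent.H1.Nilp.le_pPrimeCore
      · exact Cfsg.Agent.H11.Cores.map_subtype_normal_of_characteristic D _
      · rw [Nat.card_congr ((pPrimeCore p D).equivMapOfInjective _ D.subtype_injective).symm.toEquiv]
        exact Cfsg.Agent.H1.Nilp.pPrimeCore_coprime p
    rw [hbotY, le_bot_iff, Subgroup.map_eq_bot_iff, Subgroup.ker_subtype, le_bot_iff] at h1
    exact h1
  have hCD := (pc_iff fC hfC hkc hbotD).1 hC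
  intro y hy
  obtain ⟨x, rfl⟩ := QuotientGroup.mk'_surjective K y
  have hTcore : T.map f ≤ pCore p (N ⧸ K) :=
    Cfsg.Agent.H1.Nilp.le_pCore (hTn.map f (QuotientGroup.mk'_surjective K)) (hT.map f)
  rw [mem_centralizer_iff] at hy
  have hxC : x ∈ centralizer (T : Set N) := by
    apply key
    intro t ht
    rw [← QuotientGroup.eq_one_iff]
    have h1 := hy (f t) (hTcore ⟨t, ht, rfl⟩)
    show f x * f t * (f x)⁻¹ * (f t)⁻¹ = 1
    have h2 : f x * f t = f t * f x := h1.symm
    rw [h2]; group
  have hcore : (pCore p D).map D.subtype ≤ pCore p (N ⧸ K) := by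
    haveI : (pCore p D).Characteristic := Cfsg.Agent.H11.Cores.pCore_characteristic p
    apply Cfsg.Agent.H1.Nilp.le_pCore
    · exact Cfsg.Agent.H11.Cores.map_subtype_normal_of_characteristic D _
    · exact (Cfsg.Agent.H1.Nilp.pCore_isPGroup p).map _
  have h3 : (⟨f x, hres x hxC⟩ : D) ∈ centralizer (pCore p D : Set D) := by
    rw [mem_centralizer_iff]
    intro w hw
    apply Subtype.ext
    exact hy w (hcore ⟨w, hw, rfl⟩)
  exact hcore ⟨_, hCD h3, rfl⟩

section loc
variable {G : Type u} [Group G] [Finite G]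

/-- `M` `p`-constrained, `T` a `p`-subgroup, `N_G(T) ≤ M`: then `N_G(T)` is `p`-constrained. -/
theorem pc_normalizer_of_le {M T : Subgroup G} (hM : IsPConstrained p M) (hT : IsPGroup p T)
    (hTM : normalizer (T : Set G) ≤ M) : IsPConstrained p ↥(normalizer (T : Set G)) := by
  have hT' : T ≤ M := le_normalizer.trans hTM
  have h1 := (local_normalizer hM (P := T.subgroupOf M) (hT.comap_of_injective _ M.subtype_injective)).2
  refine pc_of_equiv ?_ h1
  refine (MulEquiv.subgroupCongr (Subgroup.subgroupOf_normalizer_eq hT').symm).trans ?_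
  exact Subgroup.subgroupOfEquivOfLe hTM

/-- `M` `p`-constrained, `T ≤ M` a `p`-subgroup, `C_G(T) ≤ M`: then `N_G(T)` is `p`-constrained. -/
theorem pc_normalizer_of_centralizer {M T : Subgroup G} (hM : IsPConstrained p M) (hT : IsPGroup p T)
    (hTM : T ≤ M) (hCM : centralizer (T : Set G) ≤ M) : IsPConstrained p ↥(normalizer (T : Set G)) := by
  have h1 := (local_centralizer hM (P := T.subgroupOf M) (hT.comap_of_injective _ M.subtype_injective)).2
  haveI : (T.subgroupOf (normalizer (T : Set G))).Normal := Subgroup.normal_in_normalizer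
  apply pc_of_centralizer (T.subgroupOf (normalizer (T : Set G))) (hT.comap_of_injective _ (Subgroup.subtype_injective _))
  refine pc_of_equiv ?_ h1
  -- both are isomorphic to the centralizer
  have hCN : centralizer (T : Set G) ≤ normalizer (T : Set G) := centralizer_le_normalizer _
  have aux : ∀ L : Subgroup G, T ≤ L → centralizer (T : Set G) ≤ L →
      centralizer ((T.subgroupOf L : Subgroup L) : Set L) = (centralizer (T : Set G)).subgroupOf L := by
    intro L hTL hCL
    ext ⟨x, hx⟩
    rw [mem_subgroupOf, mem_centralizer_iff, mem_centralizer_iff]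
    constructor
    · intro h t ht
      exact Subtype.ext_iff.1 (h ⟨t, hTL ht⟩ (by exact ht))
    · intro h t ht
      exact Subtype.ext (h t ht)
  refine ((MulEquiv.subgroupCongr (aux M hTM hCM)).trans (Subgroup.subgroupOfEquivOfLe hCM)).trans ?_
  exact ((MulEquiv.subgroupCongr (aux _ le_normalizer hCN)).trans (Subgroup.subgroupOfEquivOfLe hCN)).symm

/-- an element of order `p` in the centre of a nontrivial `p`-subgroup -/
theorem exists_central_prime {T : Subgroup G} (hT : IsPGroup p T) (hT1 : T ≠ ⊥) :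
    ∃ x ∈ T, orderOf x = p ∧ ∀ t ∈ T, t * x = x * t := by
  haveI : Nontrivial T := (Subgroup.nontrivial_iff_ne_bot T).2 hT1
  haveI : Nontrivial (Subgroup.center T) := hT.center_nontrivial
  have h2 : IsPGroup p (Subgroup.center T) := hT.to_subgroup _
  obtain ⟨n, hn, hcard⟩ := h2.nontrivial_iff_card.1 inferInstance
  obtain ⟨x, hx⟩ := exists_prime_orderOf_dvd_card' (G := Subgroup.center T) p (by rw [hcard]; exact dvd_pow_self p hn.ne')
  refine ⟨((x : T) : G), (x : T).2, ?_, ?_⟩
  · rw [Subgroup.orderOf_coe, Subgroup.orderOf_coe, hx]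
  · intro t ht
    exact Subtype.ext_iff.1 (Subgroup.mem_center_iff.1 x.2 ⟨t, ht⟩)

/-- all `p`-local subgroups are `p`-constrained if the centralizers of elements of order `p` are -/
theorem pc_of_element (h : ∀ x : G, orderOf x = p → IsPConstrained p ↥(centralizer ({x} : Set G)))
    {T : Subgroup G} (hT : IsPGroup p T) (hT1 : T ≠ ⊥) : IsPConstrained p ↥(normalizer (T : Set G)) := by
  obtain ⟨x, hxT, hxo, hxc⟩ := exists_central_prime hT hT1
  apply pc_normalizer_of_centralizer (h x hxo) hT
  · intro t ht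
    rw [mem_centralizer_singleton_iff]; exact hxc t ht
  · intro c hc
    rw [mem_centralizer_singleton_iff]
    exact ((mem_centralizer_iff.1 hc) x hxT).symm

end loc

end Cfsg.Agent.H19.PC
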