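import Mathlib
import Cfsg.Agent.H23_PQuat

/-! Groups with a central subgroup and generalized quaternion quotient. -/

set_option autoImplicit false

namespace Cfsg.Agent.H19.QuatQ

open Subgroup

universe u

theorem card_two_eq {P : Type u} [Group P] [Finite P] (hu : ∃! x : P, orderOf x = 2) (H K : Subgroup P)
    (hH : Nat.card H = 2) (hK : Nat.card K = 2) : H = K := by
  obtain ⟨z, hz, huniq⟩ := hu
  have key : ∀ L : Subgroup P, Nat.card L = 2 → L = zpowers z := by
    intro L hL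
    have h1 : ∃ x ∈ L, x ≠ 1 := by
      by_contra hcon
      push Not at hcon
      have h1 := (Subgroup.eq_bot_iff_forall L).2 hcon
      rw [h1, Subgroup.card_bot] at hL
      omega
    obtain ⟨x, hx, hx1⟩ := h1
    have hox : orderOf x = 2 := by
      have h2 : orderOf x ∣ 2 := by
        rw [← hL]; exact Subgroup.orderOf_dvd_natCard L hx
      rcases (Nat.dvd_prime Nat.prime_two).1 h2 with h3 | h3
      · exact absurd (orderOf_eq_one_iff.1 h3) hx1
      · exact h3
    have hxz := huniq x hox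
    subst hxz
    symm
    apply Subgroup.eq_of_le_of_card_ge
    · rw [zpowers_le]; exact hx
    · rw [hL, Nat.card_zpowers, hox]
  rw [key H hH, key K hK]

theorem quat {P : Type u} [Group P] [Finite P] (hP : IsPGroup 2 P) (hna : ¬ IsMulCommutative P)
    (hu : ∃! x : P, orderOf x = 2) : ∃ k : ℕ, 1 ≤ k ∧ Nonempty (P ≃* QuaternionGroup (2 ^ k)) := by
  have hnc : ¬ IsCyclic P := by
    intro hc
    exact hna inferInstance
  obtain ⟨k, ⟨e⟩⟩ := H23.PQuat.quaternion_of_unique hP (card_two_eq hu) hnc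
  refine ⟨k, ?_, ⟨e⟩⟩
  by_contra hk
  have hk0 : k = 0 := by omega
  subst hk0
  apply hnc
  have : IsCyclic (QuaternionGroup (2 ^ 0)) := by
    rw [pow_zero]; exact QuaternionGroup.quaternionGroup_one_isCyclic
  exact isCyclic_of_surjective e.symm e.symm.surjective

/-- lifting: data in a group with central subgroup `D` and quaternion quotient. -/
structure Data (S : Type u) [Group S] (D : Subgroup S) (N : ℕ) where
  x : S
  y : S
  hx : ∃ f : S →* QuaternionGroup N, f.ker = D ∧ f x = QuaternionGroup.a 1 ∧ f y = QuaternionGroup.xa 0 ∧ Function.Surjective f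

theorem exists_data {S : Type u} [Group S] [Finite S] (hS : IsPGroup 2 S) (D : Subgroup S) [hD : D.Normal]
    (hna : ¬ IsMulCommutative (S ⧸ D)) (hu : ∃! x : S ⧸ D, orderOf x = 2) :
    ∃ (k : ℕ) (f : S →* QuaternionGroup (2 ^ k)) (x y : S), 1 ≤ k ∧ f.ker = D ∧ Function.Surjective f ∧
      f x = QuaternionGroup.a 1 ∧ f y = QuaternionGroup.xa 0 := by
  obtain ⟨k, hk, ⟨e⟩⟩ := quat (hS.to_quotient D) hna hu
  let f : S →* QuaternionGroup (2 ^ k) := e.toMonoidHom.comp (QuotientGroup.mk' D)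
  have hf : Function.Surjective f := e.surjective.comp (QuotientGroup.mk'_surjective D)
  obtain ⟨x, hx⟩ := hf (QuaternionGroup.a 1)
  obtain ⟨y, hy⟩ := hf (QuaternionGroup.xa 0)
  refine ⟨k, f, x, y, hk, ?_, hf, hx, hy⟩
  ext s
  rw [MonoidHom.mem_ker]
  show e (QuotientGroup.mk' D s) = 1 ↔ s ∈ D
  rw [map_eq_one_iff e e.injective, ← MonoidHom.mem_ker, QuotientGroup.ker_mk']

theorem exists_data' {S : Type u} [Group S] [Finite S] (hS : IsPGroup 2 S) (D : Subgroup S) [hD : D.Normal]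
    (hna : ¬ IsMulCommutative (S ⧸ D)) (hu : ∃! x : S ⧸ D, orderOf x = 2) :
    ∃ (N : ℕ) (f : S →* QuaternionGroup N) (x y : S), (∃ M : ℕ, 1 ≤ M ∧ N = 2 * M) ∧ f.ker = D ∧ Function.Surjective f ∧
      f x = QuaternionGroup.a 1 ∧ f y = QuaternionGroup.xa 0 := by
  obtain ⟨k, f, x, y, hk, h⟩ := exists_data hS D hna hu
  exact ⟨2 ^ k, f, x, y, ⟨2 ^ (k - 1), Nat.one_le_two_pow, by rw [← pow_succ']; congr 1; omega⟩, h⟩

theorem inv_a {N : ℕ} (i : ZMod (2 * N)) : (QuaternionGroup.a i : QuaternionGroup N)⁻¹ = QuaternionGroup.a (-i) := rfl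
theorem inv_xa {N : ℕ} (i : ZMod (2 * N)) : (QuaternionGroup.xa i : QuaternionGroup N)⁻¹ = QuaternionGroup.xa ((N : ZMod (2 * N)) + i) := rfl

section
variable {S : Type u} [Group S] {D : Subgroup S} {N : ℕ} {f : S →* QuaternionGroup N} {x y : S}

theorem map_x_zpow (hx : f x = QuaternionGroup.a 1) (m : ℤ) : f (x ^ m) = QuaternionGroup.a (m : ZMod (2 * N)) := by
  rw [map_zpow, hx]
  have hn : ∀ n : ℕ, (QuaternionGroup.a (1 : ZMod (2 * N)) : QuaternionGroup N) ^ n = QuaternionGroup.a (n : ZMod (2 * N)) :=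
    fun n => QuaternionGroup.a_one_pow n
  cases m with
  | ofNat n =>
    rw [Int.ofNat_eq_natCast, zpow_natCast, hn]; simp
  | negSucc n =>
    rw [zpow_negSucc, hn]
    rw [Int.cast_negSucc]
    rfl

/-- every element of `S` is `x^m d` or `x^m y d`. -/
theorem elt_cases [NeZero N] (hk : f.ker = D) (hx : f x = QuaternionGroup.a 1) (hy : f y = QuaternionGroup.xa 0) (s : S) :
    ∃ m : ℤ, ∃ d ∈ D, s = x ^ m * d ∨ s = x ^ m * y * d := by
  rcases hs : f s with i | i
  · refine ⟨i.val, (x ^ (i.val : ℤ))⁻¹ * s, ?_, Or.inl (by group)⟩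
    rw [← hk, MonoidHom.mem_ker, map_mul, map_inv, map_x_zpow hx, hs]
    simp
  · refine ⟨((-i).val : ℕ), (x ^ (((-i).val : ℕ) : ℤ) * y)⁻¹ * s, ?_, Or.inr (by group)⟩
    rw [← hk, MonoidHom.mem_ker, map_mul, map_inv, map_mul, map_x_zpow hx, hs, hy]
    simp

end

end Cfsg.Agent.H19.QuatQ
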