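import Mathlib
import Cfsg.Agent.H19_SL2b

/-! More on `SL₂(q)`, `q` odd: centralizers of elements of order four; central products with a swap (helper19). -/

set_option autoImplicit false
set_option linter.unusedSectionVars false

namespace Cfsg.Agent.H19.SL2

open Matrix

variable {F : Type*} [Field F] [Fintype F]

omit [Fintype F] in
theorem neg_ap' (A : SpecialLinearGroup (Fin 2) F) : (-A) 0 0 = - A 0 0 ∧ (-A) 0 1 = - A 0 1 ∧ (-A) 1 0 = - A 1 0 ∧ (-A) 1 1 = - A 1 1 :=
  ⟨neg_ap A 0 0, neg_ap A 0 1, neg_ap A 1 0, neg_ap A 1 1⟩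

theorem cent_ab (hF : Odd (Fintype.card F)) {x a b : SpecialLinearGroup (Fin 2) F} (hx : x * x = -1) (ha : a * x = x * a) (hb : b * x = x * b) :
    a * b = b * a := by
  have h2 := two_ne_zero_of_odd hF
  obtain ⟨h11, hq⟩ := trace_zero h2 hx
  rw [ext_iff', mul00, mul01, mul10, mul11, mul00, mul01, mul10, mul11, h11] at ha hb
  rw [ext_iff', mul00, mul01, mul10, mul11, mul00, mul01, mul10, mul11]
  obtain ⟨a1, a2, a3, a4⟩ := ha
  obtain ⟨b1, b2, b3, b4⟩ := hb
  generalize x 0 0 = p at *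
  generalize x 0 1 = r at *
  generalize x 1 0 = s at *
  generalize a 0 0 = A0 at *
  generalize a 0 1 = A1 at *
  generalize a 1 0 = A2 at *
  generalize a 1 1 = A3 at *
  generalize b 0 0 = B0 at *
  generalize b 0 1 = B1 at *
  generalize b 1 0 = B2 at *
  generalize b 1 1 = B3 at *
  -- e1 = A1 B2 - B1 A2
  have key : ∀ e : F, r * e = 0 → s * e = 0 → 2 * (p * e) = 0 → e = 0 := by
    intro e h3 h4 h5
    have h6 : p * e = 0 := (mul_eq_zero.1 h5).resolve_left h2
    linear_combination (-p) * h6 - s * h3 + e * hq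
  have e1 : A1 * B2 - B1 * A2 = 0 := by
    apply key
    · linear_combination B1 * a1 - A1 * b1
    · linear_combination B2 * a1 - A2 * b1
    · have h3 : 2 * (2 * (p * (A1 * B2 - B1 * A2))) = 0 := by
        linear_combination A1 * b3 - B1 * a3 + A2 * b2 - B2 * a2 - (A0 - A3) * b1 + (B0 - B3) * a1
      exact (mul_eq_zero.1 h3).resolve_left h2
  have e2 : B1 * (A0 - A3) - A1 * (B0 - B3) = 0 := by
    apply key
    · linear_combination B1 * a2 - A1 * b2
    · linear_combination (-2 * p) * e1 - B1 * a3 + A1 * b3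
    · linear_combination (B0 - B3) * a2 - (A0 - A3) * b2
  have e3 : A2 * (B0 - B3) - B2 * (A0 - A3) = 0 := by
    apply key
    · linear_combination (-2 * p) * e1 + A2 * b2 - B2 * a2
    · linear_combination B2 * a3 - A2 * b3
    · linear_combination (B0 - B3) * a3 - (A0 - A3) * b3
  refine ⟨?_, ?_, ?_, ?_⟩
  · linear_combination e1
  · linear_combination e2
  · linear_combination e3
  · linear_combination -e1

theorem inv4 (hF : Odd (Fintype.card F)) {x a : SpecialLinearGroup (Fin 2) F} (hx : x * x = -1) (ha : a * x = -(x * a)) :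
    a * a = -1 := by
  have h2 := two_ne_zero_of_odd hF
  obtain ⟨h11, hq⟩ := trace_zero h2 hx
  have hd := det_eq a
  obtain ⟨n0, n1, n2, n3⟩ := neg_ap' (x * a)
  obtain ⟨f0, f1, f2, f3⟩ := neg_one_ap (F := F)
  rw [ext_iff', n0, n1, n2, n3, mul00, mul01, mul10, mul11, mul00, mul01, mul10, mul11, h11] at ha
  rw [ext_iff', mul00, mul01, mul10, mul11, f0, f1, f2, f3]
  obtain ⟨a1, a2, a3, a4⟩ := ha
  have key : ∀ e : F, x 0 1 * e = 0 → x 1 0 * e = 0 → 2 * (x 0 0 * e) = 0 → e = 0 := by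
    intro e h3 h4 h5
    have h6 : x 0 0 * e = 0 := (mul_eq_zero.1 h5).resolve_left h2
    linear_combination (-x 0 0) * h6 - x 1 0 * h3 + e * hq
  have ht : a 0 0 + a 1 1 = 0 := by
    apply key
    · linear_combination a2
    · linear_combination a3
    · linear_combination a1 - a4
  refine ⟨?_, ?_, ?_, ?_⟩
  · linear_combination a 0 0 * ht - hd
  · linear_combination a 0 1 * ht
  · linear_combination a 1 0 * ht
  · linear_combination a 1 1 * ht - hd

end Cfsg.Agent.H19.SL2

namespace Cfsg.Agent.H19.SL2b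

open Subgroup

variable {G : Type*} [Group G]

/-- centralizers of elements of order four -/
structure More (L : Subgroup G) (j : G) : Prop where
  cab : ∀ x ∈ L, x * x = j → ∀ a ∈ L, ∀ b ∈ L, a * x = x * a → b * x = x * b → a * b = b * a
  inv4 : ∀ x ∈ L, x * x = j → ∀ a ∈ L, a * x = j * (x * a) → a * a = j

theorem more {F : Type*} [Field F] [Fintype F] (hF : Odd (Fintype.card F)) (L : Subgroup G)
    (e : L ≃* Matrix.SpecialLinearGroup (Fin 2) F) {j : G} (hj : orderOf j = 2) (hjL : j ∈ L) : More L j := by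
  have h := SL2.like hF
  have hjj : j * j = 1 := by rw [← sq, ← hj]; exact pow_orderOf_eq_one j
  have hj1 : j ≠ 1 := by rintro rfl; rw [orderOf_one] at hj; omega
  have hjeq : e ⟨j, hjL⟩ = -1 := by
    rcases h.inv (e ⟨j, hjL⟩) (by
      rw [← map_mul]
      have : (⟨j, hjL⟩ : L) * ⟨j, hjL⟩ = 1 := Subtype.ext hjj
      rw [this, map_one]) with h1 | h1
    · have : (⟨j, hjL⟩ : L) = 1 := e.injective (h1.trans (map_one e).symm)
      exact absurd (congrArg Subtype.val this) hj1
    · exact h1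
  constructor
  · intro x hx hxx a ha b hb hax hbx
    have h1 : e ⟨x, hx⟩ * e ⟨x, hx⟩ = -1 := by
      rw [← map_mul, ← hjeq]; congr 1; exact Subtype.ext hxx
    have h2 : e ⟨a, ha⟩ * e ⟨x, hx⟩ = e ⟨x, hx⟩ * e ⟨a, ha⟩ := by
      rw [← map_mul, ← map_mul]; congr 1; exact Subtype.ext hax
    have h3 : e ⟨b, hb⟩ * e ⟨x, hx⟩ = e ⟨x, hx⟩ * e ⟨b, hb⟩ := by
      rw [← map_mul, ← map_mul]; congr 1; exact Subtype.ext hbx
    have h4 := SL2.cent_ab hF h1 h2 h3
    rw [← map_mul, ← map_mul] at h4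
    exact congrArg Subtype.val (e.injective h4)
  · intro x hx hxx a ha hax
    have h1 : e ⟨x, hx⟩ * e ⟨x, hx⟩ = -1 := by
      rw [← map_mul, ← hjeq]; congr 1; exact Subtype.ext hxx
    have h2 : e ⟨a, ha⟩ * e ⟨x, hx⟩ = -(e ⟨x, hx⟩ * e ⟨a, ha⟩) := by
      have h3 : (⟨a, ha⟩ : L) * ⟨x, hx⟩ = ⟨j, hjL⟩ * (⟨x, hx⟩ * ⟨a, ha⟩) := Subtype.ext hax
      rw [← map_mul, h3, map_mul, map_mul, hjeq, neg_mul, one_mul]
    have h4 := SL2.inv4 hF h1 h2
    rw [← map_mul, ← hjeq] at h4
    exact congrArg Subtype.val (e.injective h4)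

section swap
variable [Finite G] {L₁ L₂ : Subgroup G} {j n : G} (h : Pair L₁ L₂ j) (m₁ : More L₁ j) (m₂ : More L₂ j)
  (hidx : ∀ g, g * j = j * g → g ∉ L₁ ⊔ L₂ → n⁻¹ * g ∈ L₁ ⊔ L₂)
  (hnj : n * j = j * n) (hn2 : n * n = j) (hswap : ∀ x, x ∈ L₁ ↔ n * x * n⁻¹ ∈ L₂)
include h hn2 hswap hnj

theorem swap_nonmem : n ∉ L₁ ⊔ L₂ := by
  intro hn
  obtain ⟨w, hw, hww⟩ := h.l1.ex4
  have h1 : n * w * n⁻¹ ∈ L₂ := (hswap w).1 hw
  have h2 : n * w * n⁻¹ ∈ L₁ := h.symm.normal_right (by rw [sup_comm]; exact hn) hw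
  rcases h.inf _ h2 h1 with h3 | h3
  · have h4 : w = 1 := by
      calc w = n⁻¹ * (n * w * n⁻¹) * n := by group
        _ = 1 := by rw [h3]; group
    rw [h4, one_mul] at hww; exact h.l1.j1 hww.symm
  · have h4 : w = j := by
      calc w = n⁻¹ * (n * w * n⁻¹) * n := by group
        _ = n⁻¹ * (j * n) := by rw [h3]; group
        _ = j := by rw [← hnj]; group
    rw [h4, h.l1.jj] at hww; exact h.l1.j1 hww.symm

omit [Finite G] in
theorem swap' (y : G) : y ∈ L₂ ↔ n * y * n⁻¹ ∈ L₁ := by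
  have e1 : ∀ y : G, n * (n * y * n⁻¹) * n⁻¹ = j * y * j⁻¹ := by
    intro y
    rw [← hn2]; group
  constructor
  · intro hy
    rw [hswap, e1]
    exact L₂.mul_mem (L₂.mul_mem h.l2.jL hy) (L₂.inv_mem h.l2.jL)
  · intro hy
    rw [hswap, e1] at hy
    have := L₂.mul_mem (L₂.mul_mem (L₂.inv_mem h.l2.jL) hy) h.l2.jL
    have e2 : j⁻¹ * (j * y * j⁻¹) * j = y := by group
    rwa [e2] at this

include hidx in
/-- elements outside `L₁L₂` interchange the factors -/
theorem out_swap {g : G} (hg : g * j = j * g) (hgo : g ∉ L₁ ⊔ L₂) : (∀ x ∈ L₁, g * x * g⁻¹ ∈ L₂) ∧ ∀ y ∈ L₂, g * y * g⁻¹ ∈ L₁ := by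
  have h1 := hidx g hg hgo
  have e : ∀ x : G, g * x * g⁻¹ = n * ((n⁻¹ * g) * x * (n⁻¹ * g)⁻¹) * n⁻¹ := by intro x; group
  constructor
  · intro x hx
    rw [e, ← hswap]
    exact h.symm.normal_right (by rw [sup_comm]; exact h1) hx
  · intro y hy
    rw [e, ← swap' h hnj hn2 hswap]
    exact h.normal_right h1 hy

include hidx in
/-- no involutions outside `L₁L₂` -/
theorem out_sq {g : G} (hg : g * j = j * g) (hgo : g ∉ L₁ ⊔ L₂) : g * g ≠ 1 := by
  intro hgg
  obtain ⟨a, ha, b, hb, hab⟩ := h.mem_sup.1 (hidx g hg hgo)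
  have hg' : g = n * (a * b) := by rw [← hab]; group
  obtain ⟨a', ha'⟩ : ∃ a', a' = n * a * n⁻¹ := ⟨_, rfl⟩
  obtain ⟨b', hb'⟩ : ∃ b', b' = n * b * n⁻¹ := ⟨_, rfl⟩
  have ha2 : a' ∈ L₂ := by rw [ha']; exact (hswap a).1 ha
  have hb1 : b' ∈ L₁ := by rw [hb']; exact (swap' h hnj hn2 hswap b).1 hb
  have e1 : g * g = j * ((b' * a) * (a' * b)) := by
    calc g * g = (n * a * n⁻¹) * (n * b * n⁻¹) * (n * n) * a * b := by rw [hg']; group
      _ = a' * b' * j * a * b := by rw [← ha', ← hb', hn2]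
      _ = (a' * b') * (j * a) * b := by group
      _ = (b' * a') * (a * j) * b := by rw [← h.comm b' hb1 a' ha2, h.l1.cj a ha]
      _ = b' * (a' * a) * (j * b) := by group
      _ = b' * (a * a') * (b * j) := by rw [← h.comm a ha a' ha2, h.l2.cj b hb]
      _ = ((b' * a) * (a' * b)) * j := by group
      _ = (b' * a) * ((a' * b) * j) := by group
      _ = (b' * a) * (j * (a' * b)) := by rw [h.l2.cj _ (L₂.mul_mem ha2 hb)]
      _ = ((b' * a) * j) * (a' * b) := by group
      _ = (j * (b' * a)) * (a' * b) := by rw [h.l1.cj _ (L₁.mul_mem hb1 ha)]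
      _ = _ := by group
  rw [hgg] at e1
  have hjj := h.l1.jj
  have e2 : (b' * a) * (a' * b) = j := by
    calc (b' * a) * (a' * b) = j * (j * ((b' * a) * (a' * b))) := by rw [← mul_assoc j j, hjj, one_mul]
      _ = j := by rw [← e1, mul_one]
  have e3 : b' * a = j * (a' * b)⁻¹ := by rw [← e2]; group
  have h4 := h.inf (b' * a) (L₁.mul_mem hb1 ha) (by rw [e3]; exact L₂.mul_mem h.l2.jL (L₂.inv_mem (L₂.mul_mem ha2 hb)))
  have hnb : n * b' * n⁻¹ = b := by
    rw [hb']
    calc n * (n * b * n⁻¹) * n⁻¹ = (n * n) * b * (n * n)⁻¹ := by group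
      _ = b * j * j⁻¹ := by rw [hn2, ← h.l2.cj b hb]
      _ = b := by group
  have e5 : n * (b' * a) * n⁻¹ = b * a' := by
    calc n * (b' * a) * n⁻¹ = (n * b' * n⁻¹) * (n * a * n⁻¹) := by group
      _ = b * a' := by rw [hnb, ← ha']
  rcases h4 with h5 | h5
  · rw [h5, mul_one, mul_inv_cancel] at e5
    rw [h5, one_mul, mul_eq_one_comm.1 e5.symm] at e2
    exact h.l1.j1 e2.symm
  · rw [h5, hnj, mul_inv_cancel_right] at e5
    rw [h5] at e2
    have h6 : a' * b = 1 := mul_eq_left.1 e2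
    rw [mul_eq_one_comm.1 h6] at e5
    exact h.l1.j1 e5

include hidx m₁ m₂ in
/-- in the presence of a swap with `n² = j`, the involution `j` is isolated -/
theorem isolated (g₀ : G) (hcomm : j * (g₀ * j * g₀⁻¹) = (g₀ * j * g₀⁻¹) * j) : g₀ * j * g₀⁻¹ = j := by
  classical
  by_contra hne
  have hjj := h.l1.jj
  have hj1 := h.l1.j1
  have hjinv : j⁻¹ = j := inv_eq_of_mul_eq_one_right hjj
  obtain ⟨t, ht⟩ : ∃ t, t = g₀ * j * g₀⁻¹ := ⟨_, rfl⟩
  rw [← ht] at hcomm hne
  have htt : t * t = 1 := by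
    rw [ht]
    calc g₀ * j * g₀⁻¹ * (g₀ * j * g₀⁻¹) = g₀ * (j * j) * g₀⁻¹ := by group
      _ = 1 := by rw [hjj]; group
  have ht1 : t ≠ 1 := by
    rintro h1
    rw [h1] at ht
    apply hj1
    calc j = g₀⁻¹ * (g₀ * j * g₀⁻¹) * g₀ := by group
      _ = 1 := by rw [← ht]; group
  -- involutions of the centralizer
  have hinv : ∀ s : G, s * j = j * s → s * s = 1 → s ≠ 1 → s ≠ j → ∃ x ∈ L₁, ∃ y ∈ L₂, x * x = j ∧ y * y = j ∧ s = x * y := by
    intro s hs hss hs1 hsj
    have hsL : s ∈ L₁ ⊔ L₂ := by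
      by_contra hcon
      exact out_sq h hidx hnj hn2 hswap hs hcon hss
    rcases h.invol hsL hss with h1 | h1 | h1
    · exact absurd h1 hs1
    · exact absurd h1 hsj
    · exact h1
  -- each is conjugate to its product with j
  have hconj : ∀ s : G, s * j = j * s → s * s = 1 → s ≠ 1 → s ≠ j → ∃ c, c * j = j * c ∧ c * s * c⁻¹ = s * j := by
    intro s hs hss hs1 hsj
    obtain ⟨x, hx, y, hy, hxx, hyy, rfl⟩ := hinv s hs hss hs1 hsj
    have hxj : (x * j) * (x * j) = j := by
      calc (x * j) * (x * j) = x * (j * x) * j := by group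
        _ = x * (x * j) * j := by rw [h.l1.cj x hx]
        _ = (x * x) * (j * j) := by group
        _ = j := by rw [hxx, hjj, mul_one]
    obtain ⟨c, hc, hcx⟩ := h.l1.conj4 x hx (x * j) (L₁.mul_mem hx h.l1.jL) hxx hxj
    refine ⟨c, h.l1.cj c hc, ?_⟩
    calc c * (x * y) * c⁻¹ = (c * x * c⁻¹) * (c * y * c⁻¹) := by group
      _ = (x * j) * (y * c * c⁻¹) := by rw [hcx, h.comm c hc y hy]
      _ = x * (j * y) := by group
      _ = x * (y * j) := by rw [h.l2.cj y hy]
      _ = x * y * j := by group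
  have htj : t * j = j * t := hcomm.symm
  obtain ⟨c, hcj, hct⟩ := hconj t htj htt ht1 hne
  -- the other conjugation
  obtain ⟨c', hc't, hc'j⟩ : ∃ c', c' * t * c'⁻¹ = t ∧ c' * j * c'⁻¹ = j * t := by
    obtain ⟨s, hs⟩ : ∃ s, s = g₀⁻¹ * j * g₀ := ⟨_, rfl⟩
    have hsj : s * j = j * s := by
      calc s * j = g₀⁻¹ * (j * (g₀ * j * g₀⁻¹)) * g₀ := by rw [hs]; group
        _ = g₀⁻¹ * ((g₀ * j * g₀⁻¹) * j) * g₀ := by rw [← ht, hcomm]
        _ = j * s := by rw [hs]; group
    have hss : s * s = 1 := by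
      rw [hs]
      calc g₀⁻¹ * j * g₀ * (g₀⁻¹ * j * g₀) = g₀⁻¹ * (j * j) * g₀ := by group
        _ = 1 := by rw [hjj]; group
    have hs1 : s ≠ 1 := by
      intro h1
      apply hj1
      calc j = g₀ * s * g₀⁻¹ := by rw [hs]; group
        _ = 1 := by rw [h1]; group
    have hsne : s ≠ j := by
      intro h1
      apply hne
      rw [ht]
      calc g₀ * j * g₀⁻¹ = g₀ * s * g₀⁻¹ := by rw [h1]
        _ = j := by rw [hs]; group
    obtain ⟨d, hdj, hds⟩ := hconj s hsj hss hs1 hsne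
    refine ⟨g₀ * d * g₀⁻¹, ?_, ?_⟩
    · rw [ht]
      calc g₀ * d * g₀⁻¹ * (g₀ * j * g₀⁻¹) * (g₀ * d * g₀⁻¹)⁻¹ = g₀ * (d * j) * d⁻¹ * g₀⁻¹ := by group
        _ = g₀ * (j * d) * d⁻¹ * g₀⁻¹ := by rw [hdj]
        _ = _ := by group
    · calc g₀ * d * g₀⁻¹ * j * (g₀ * d * g₀⁻¹)⁻¹ = g₀ * (d * (g₀⁻¹ * j * g₀) * d⁻¹) * g₀⁻¹ := by group
        _ = g₀ * (s * j) * g₀⁻¹ := by rw [← hs, hds]
        _ = j * t := by rw [hs, ht]; group
  obtain ⟨x, hx, y, hy, hxx, hyy, hxy⟩ := hinv t htj htt ht1 hne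
  -- an element outside commuting with t with square j
  obtain ⟨b, hb, hby⟩ := h.l2.conj4 (n * x * n⁻¹) ((hswap x).1 hx) y hy (by
    calc n * x * n⁻¹ * (n * x * n⁻¹) = n * (x * x) * n⁻¹ := by group
      _ = j := by rw [hxx, hnj, mul_inv_cancel_right]) hyy
  obtain ⟨m, hm⟩ : ∃ m, m = b * n * b⁻¹ := ⟨_, rfl⟩
  have hmm : m * m = j := by
    rw [hm]
    calc b * n * b⁻¹ * (b * n * b⁻¹) = b * (n * n) * b⁻¹ := by group
      _ = j := by rw [hn2, h.l2.cj b hb, mul_inv_cancel_right]
  have hmj : m * j = j * m := by rw [← hmm]; group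
  have hmx : m * x * m⁻¹ = y := by
    rw [hm]
    calc b * n * b⁻¹ * x * (b * n * b⁻¹)⁻¹ = b * n * (b⁻¹ * x * b) * n⁻¹ * b⁻¹ := by group
      _ = b * n * x * n⁻¹ * b⁻¹ := by
        have : b⁻¹ * x * b = x := by rw [mul_assoc, h.comm x hx b hb]; group
        rw [this]
      _ = b * (n * x * n⁻¹) * b⁻¹ := by group
      _ = y := hby
  have hmy : m * y * m⁻¹ = x := by
    rw [← hmx]
    calc m * (m * x * m⁻¹) * m⁻¹ = (m * m) * x * (m * m)⁻¹ := by group
      _ = x := by rw [hmm, ← h.l1.cj x hx, mul_inv_cancel_right]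
  have hmt : m * t = t * m := by
    have : m * t * m⁻¹ = t := by
      rw [hxy]
      calc m * (x * y) * m⁻¹ = (m * x * m⁻¹) * (m * y * m⁻¹) := by group
        _ = y * x := by rw [hmx, hmy]
        _ = x * y := (h.comm x hx y hy).symm
    calc m * t = m * t * m⁻¹ * m := by group
      _ = t * m := by rw [this]
  have hmo : m ∉ L₁ ⊔ L₂ := by
    intro hmem
    apply swap_nonmem h hnj hn2 hswap
    have hbm : b ∈ L₁ ⊔ L₂ := Subgroup.mem_sup_right hb
    have : n = b⁻¹ * m * b := by rw [hm]; group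
    rw [this]
    exact mul_mem (mul_mem (inv_mem hbm) hmem) hbm
  -- the root sets
  have hxt : x * t = t * x := by rw [hxy, mul_assoc, ← h.comm x hx y hy]
  have hxj : x * j = j * x := h.l1.cj x hx
  let R : G → Set G := fun w => {g | g * j = j * g ∧ g * t = t * g ∧ g * g = w}
  let Ri : G → Set G := fun w => {g | g ∈ R w ∧ g ∈ L₁ ⊔ L₂}
  let Ro : G → Set G := fun w => {g | g ∈ R w ∧ g ∉ L₁ ⊔ L₂}
  have hsplit : ∀ w, (R w).ncard = (Ri w).ncard + (Ro w).ncard := by
    intro w
    rw [← Set.ncard_union_eq ?_ (Set.toFinite _) (Set.toFinite _)]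
    · congr 1
      ext g
      constructor
      · intro hg
        by_cases hgL : g ∈ L₁ ⊔ L₂
        · exact Or.inl ⟨hg, hgL⟩
        · exact Or.inr ⟨hg, hgL⟩
      · rintro (hg | hg)
        · exact hg.1
        · exact hg.1
    · rw [Set.disjoint_left]
      intro g hg hg'
      exact hg'.2 hg.2
  -- conjugations
  have hconjR : ∀ (d : G) (w w' : G), (∀ g, g * j = j * g → g * t = t * g → (d * g * d⁻¹) * j = j * (d * g * d⁻¹) ∧ (d * g * d⁻¹) * t = t * (d * g * d⁻¹)) →
      d * w * d⁻¹ = w' → (R w).ncard ≤ (R w').ncard := by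
    intro d w w' hd hw
    apply Set.ncard_le_ncard_of_injOn (fun g => d * g * d⁻¹) _ _ (Set.toFinite _)
    · rintro g ⟨h1, h2, h3⟩
      refine ⟨(hd g h1 h2).1, (hd g h1 h2).2, ?_⟩
      calc d * g * d⁻¹ * (d * g * d⁻¹) = d * (g * g) * d⁻¹ := by group
        _ = w' := by rw [h3, hw]
    · intro g _ g' _ hgg
      exact mul_left_cancel (mul_right_cancel hgg)
  have hR1 : (R (t * j)).ncard ≤ (R t).ncard := by
    apply hconjR c⁻¹
    · intro g hgj hgt
      have hcj' : c⁻¹ * j * c = j := by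
        calc c⁻¹ * j * c = c⁻¹ * (j * c) := by group
          _ = j := by rw [← hcj]; group
      have hct' : c⁻¹ * (t * j) * c = t := by rw [← hct]; group
      have hgtj : g * (t * j) = (t * j) * g := by
        calc g * (t * j) = (g * t) * j := by group
          _ = t * (g * j) := by rw [hgt]; group
          _ = (t * j) * g := by rw [hgj]; group
      rw [inv_inv]
      constructor
      · calc c⁻¹ * g * c * j = c⁻¹ * (g * (c * j)) := by group
          _ = c⁻¹ * (g * (j * c)) := by rw [hcj]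
          _ = c⁻¹ * (g * j) * c := by group
          _ = c⁻¹ * (j * g) * c := by rw [hgj]
          _ = (c⁻¹ * j * c) * (c⁻¹ * g * c) := by group
          _ = j * (c⁻¹ * g * c) := by rw [hcj']
      · calc c⁻¹ * g * c * t = c⁻¹ * g * c * (c⁻¹ * (t * j) * c) := by rw [hct']
          _ = c⁻¹ * (g * (t * j)) * c := by group
          _ = c⁻¹ * ((t * j) * g) * c := by rw [hgtj]
          _ = (c⁻¹ * (t * j) * c) * (c⁻¹ * g * c) := by group
          _ = t * (c⁻¹ * g * c) := by rw [hct']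
    · rw [inv_inv, ← hct]; group
  have hR2 : (R j).ncard ≤ (R (t * j)).ncard := by
    apply hconjR c'
    · intro g hgj hgt
      have h1 : (c' * g * c'⁻¹) * t = t * (c' * g * c'⁻¹) := by
        calc (c' * g * c'⁻¹) * t = (c' * g * c'⁻¹) * (c' * t * c'⁻¹) := by rw [hc't]
          _ = c' * (g * t) * c'⁻¹ := by group
          _ = c' * (t * g) * c'⁻¹ := by rw [hgt]
          _ = (c' * t * c'⁻¹) * (c' * g * c'⁻¹) := by group
          _ = t * (c' * g * c'⁻¹) := by rw [hc't]
      have h2 : (c' * g * c'⁻¹) * (j * t) = (j * t) * (c' * g * c'⁻¹) := by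
        calc (c' * g * c'⁻¹) * (j * t) = (c' * g * c'⁻¹) * (c' * j * c'⁻¹) := by rw [hc'j]
          _ = c' * (g * j) * c'⁻¹ := by group
          _ = c' * (j * g) * c'⁻¹ := by rw [hgj]
          _ = (c' * j * c'⁻¹) * (c' * g * c'⁻¹) := by group
          _ = (j * t) * (c' * g * c'⁻¹) := by rw [hc'j]
      refine ⟨?_, h1⟩
      have h3 : j = (j * t) * t := by rw [mul_assoc, htt, mul_one]
      calc (c' * g * c'⁻¹) * j = (c' * g * c'⁻¹) * ((j * t) * t) := by rw [← h3]
        _ = ((c' * g * c'⁻¹) * (j * t)) * t := by group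
        _ = ((j * t) * (c' * g * c'⁻¹)) * t := by rw [h2]
        _ = (j * t) * ((c' * g * c'⁻¹) * t) := by group
        _ = (j * t) * (t * (c' * g * c'⁻¹)) := by rw [h1]
        _ = ((j * t) * t) * (c' * g * c'⁻¹) := by group
        _ = j * (c' * g * c'⁻¹) := by rw [← h3]
    · rw [hc'j, htj]
  have htjj : (t * j) * (t * j) = 1 := by
    calc (t * j) * (t * j) = t * (j * t) * j := by group
      _ = t * (t * j) * j := by rw [htj]
      _ = (t * t) * (j * j) := by group
      _ = 1 := by rw [htt, hjj, mul_one]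
  have htj1 : t * j ≠ 1 := by
    intro h1
    apply hne
    calc t = (t * j) * j := by rw [mul_assoc, hjj, mul_one]
      _ = j := by rw [h1, one_mul]
  -- description of the inner elements
  have hinner : ∀ g ∈ L₁ ⊔ L₂, g * t = t * g → g * g ≠ 1 → ∃ a ∈ L₁, ∃ b ∈ L₂, g = a * b ∧ a * x = x * a ∧ b * y = y * b := by
    intro g hg hgt hgg
    obtain ⟨a, ha, b, hb, rfl⟩ := h.mem_sup.1 hg
    have h1 : (a * x * a⁻¹) * (b * y * b⁻¹) = x * y := by
      have h2 : a * b * t * (a * b)⁻¹ = t := by rw [hgt, mul_inv_cancel_right]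
      rw [hxy] at h2
      rw [← h2]
      calc (a * x * a⁻¹) * (b * y * b⁻¹) = a * x * (a⁻¹ * b) * y * b⁻¹ := by group
        _ = a * x * (b * a⁻¹) * y * b⁻¹ := by rw [h.comm _ (L₁.inv_mem ha) b hb]
        _ = a * (x * b) * (a⁻¹ * y) * b⁻¹ := by group
        _ = a * (b * x) * (y * a⁻¹) * b⁻¹ := by rw [h.comm x hx b hb, h.comm _ (L₁.inv_mem ha) y hy]
        _ = a * b * (x * y) * (a⁻¹ * b⁻¹) := by group
        _ = a * b * (x * y) * (b⁻¹ * a⁻¹) := by rw [h.comm _ (L₁.inv_mem ha) _ (L₂.inv_mem hb)]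
        _ = _ := by group
    have h2 : x⁻¹ * (a * x * a⁻¹) = y * (b * y * b⁻¹)⁻¹ := by
      rw [inv_mul_eq_iff_eq_mul, ← mul_assoc, ← h1]; group
    have h3 := h.inf (x⁻¹ * (a * x * a⁻¹)) (L₁.mul_mem (L₁.inv_mem hx) (L₁.mul_mem (L₁.mul_mem ha hx) (L₁.inv_mem ha)))
      (by rw [h2]; exact L₂.mul_mem hy (L₂.inv_mem (L₂.mul_mem (L₂.mul_mem hb hy) (L₂.inv_mem hb))))
    rcases h3 with h3 | h3
    · have h4 : a * x = x * a := by
        have : a * x * a⁻¹ = x := (inv_mul_eq_one.1 h3).symm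
        calc a * x = a * x * a⁻¹ * a := by group
          _ = x * a := by rw [this]
      have h5 : b * y = y * b := by
        rw [h3] at h2
        have : b * y * b⁻¹ = y := (mul_inv_eq_one.1 h2.symm).symm
        calc b * y = b * y * b⁻¹ * b := by group
          _ = y * b := by rw [this]
      exact ⟨a, ha, b, hb, rfl, h4, h5⟩
    · exfalso
      apply hgg
      have h4 : a * x = j * (x * a) := by
        have : a * x * a⁻¹ = x * j := by rw [← h3]; group
        calc a * x = a * x * a⁻¹ * a := by group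
          _ = x * j * a := by rw [this]
          _ = j * x * a := by rw [hxj]
          _ = _ := by group
      have h5 : b * y = j * (y * b) := by
        rw [h3] at h2
        have h6 : b * y * b⁻¹ = j * y := by
          have h7 : (b * y * b⁻¹)⁻¹ = y⁻¹ * j := by rw [h2]; group
          calc b * y * b⁻¹ = ((b * y * b⁻¹)⁻¹)⁻¹ := by rw [inv_inv]
            _ = j⁻¹ * y := by rw [h7]; group
            _ = j * y := by rw [hjinv]
        calc b * y = b * y * b⁻¹ * b := by group
          _ = j * (y * b) := by rw [h6, mul_assoc]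
      rw [h.sq_mul ha hb, m₁.inv4 x hx hxx a ha h4, m₂.inv4 y hy hyy b hb h5, hjj]
  have habel : ∀ a ∈ L₁, ∀ b ∈ L₂, ∀ a' ∈ L₁, ∀ b' ∈ L₂, a * x = x * a → b * y = y * b → a' * x = x * a' → b' * y = y * b' →
      (a * b) * (a' * b') = (a' * b') * (a * b) := by
    intro a ha b hb a' ha' b' hb' h1 h2 h3 h4
    calc (a * b) * (a' * b') = a * (b * a') * b' := by group
      _ = a * (a' * b) * b' := by rw [h.comm a' ha' b hb]
      _ = (a * a') * (b * b') := by group
      _ = (a' * a) * (b' * b) := by rw [m₁.cab x hx hxx a ha a' ha' h1 h3, m₂.cab y hy hyy b hb b' hb' h2 h4]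
      _ = a' * (a * b') * b := by group
      _ = a' * (b' * a) * b := by rw [h.comm a ha b' hb']
      _ = _ := by group
  have hin : ∀ w, w ≠ 1 → w * w = 1 → (Ri w).ncard ≤ (Ri j).ncard := by
    intro w hw hww
    rcases Set.eq_empty_or_nonempty (Ri w) with he | ⟨r, ⟨hrj, hrt, hrr⟩, hrL⟩
    · rw [he, Set.ncard_empty]; exact Nat.zero_le _
    · obtain ⟨a, ha, b, hb, hrab, hax, hby'⟩ := hinner r hrL hrt (by rw [hrr]; exact hw)
      have hrx : r * x = x * r := by
        rw [hrab]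
        calc a * b * x = a * (b * x) := by group
          _ = a * (x * b) := by rw [h.comm x hx b hb]
          _ = (a * x) * b := by group
          _ = (x * a) * b := by rw [hax]
          _ = _ := by group
      apply Set.ncard_le_ncard_of_injOn (fun g => g * r⁻¹ * x) _ _ (Set.toFinite _)
      · rintro g ⟨⟨hgj, hgt, hgg⟩, hgL⟩
        obtain ⟨a', ha', b', hb', hgab, hax', hby''⟩ := hinner g hgL hgt (by rw [hgg]; exact hw)
        have hgr : g * r = r * g := by rw [hrab, hgab]; exact habel a' ha' b' hb' a ha b hb hax' hby'' hax hby'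
        have hgx : g * x = x * g := by
          rw [hgab]
          calc a' * b' * x = a' * (b' * x) := by group
            _ = a' * (x * b') := by rw [h.comm x hx b' hb']
            _ = (a' * x) * b' := by group
            _ = (x * a') * b' := by rw [hax']
            _ = _ := by group
        have cgr : Commute g r := hgr
        have cgx : Commute g x := hgx
        have crx : Commute r x := hrx
        refine ⟨⟨?_, ?_, ?_⟩, ?_⟩
        · exact (((show Commute g j from hgj).mul_left (show Commute r j from hrj).inv_left).mul_left (show Commute x j from hxj)).eq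
        · exact (((show Commute g t from hgt).mul_left (show Commute r t from hrt).inv_left).mul_left (show Commute x t from hxt)).eq
        · have c1 : Commute (g * r⁻¹) x := cgx.mul_left crx.inv_left
          show g * r⁻¹ * x * (g * r⁻¹ * x) = j
          calc g * r⁻¹ * x * (g * r⁻¹ * x) = g * r⁻¹ * (x * (g * r⁻¹)) * x := by group
            _ = g * r⁻¹ * ((g * r⁻¹) * x) * x := by rw [c1.eq]
            _ = g * (r⁻¹ * g) * r⁻¹ * (x * x) := by group
            _ = g * (g * r⁻¹) * r⁻¹ * (x * x) := by rw [(cgr.inv_right).eq]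
            _ = (g * g) * (r * r)⁻¹ * (x * x) := by group
            _ = j := by rw [hgg, hrr, mul_inv_cancel, one_mul, hxx]
        · exact mul_mem (mul_mem hgL (inv_mem hrL)) (Subgroup.mem_sup_left hx)
      · intro g _ g' _ hgg
        exact mul_right_cancel (mul_right_cancel hgg)
  -- outer elements
  have hout : (Ro t).ncard + (Ro (t * j)).ncard ≤ (Ro j).ncard := by
    rw [← Set.ncard_union_eq ?_ (Set.toFinite _) (Set.toFinite _)]
    · apply Set.ncard_le_ncard_of_injOn (fun g => g * x) _ _ (Set.toFinite _)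
      · rintro g hg
        have hg' : g * j = j * g ∧ g * t = t * g ∧ g ∉ L₁ ⊔ L₂ ∧ (g * g = t ∨ g * g = t * j) := by
          rcases hg with ⟨⟨h1, h2, h3⟩, h4⟩ | ⟨⟨h1, h2, h3⟩, h4⟩
          · exact ⟨h1, h2, h4, Or.inl h3⟩
          · exact ⟨h1, h2, h4, Or.inr h3⟩
        obtain ⟨hgj, hgt, hgL, hgg⟩ := hg'
        obtain ⟨hsw1, hsw2⟩ := out_swap h hidx hnj hn2 hswap hgj hgL
        have hgxL : g * x ∉ L₁ ⊔ L₂ := by
          intro hmem
          apply hgL
          have : g = g * x * x⁻¹ := by group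
          rw [this]; exact mul_mem hmem (inv_mem (Subgroup.mem_sup_left hx))
        have hgxj : (g * x) * j = j * (g * x) := ((show Commute g j from hgj).mul_left (show Commute x j from hxj)).eq
        refine ⟨⟨hgxj, ((show Commute g t from hgt).mul_left (show Commute x t from hxt)).eq, ?_⟩, hgxL⟩
        -- g x g⁻¹ is y or y j
        have h1 : (g * y * g⁻¹) * (g * x * g⁻¹) = x * y := by
          have h2 : g * t * g⁻¹ = t := by rw [hgt, mul_inv_cancel_right]
          rw [← hxy, ← h2, hxy, h.comm x hx y hy]; group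
        have h2 : x⁻¹ * (g * y * g⁻¹) = y * (g * x * g⁻¹)⁻¹ := by
          rw [inv_mul_eq_iff_eq_mul, ← mul_assoc, ← h1]; group
        have h3 := h.inf (x⁻¹ * (g * y * g⁻¹)) (L₁.mul_mem (L₁.inv_mem hx) (hsw2 y hy)) (by rw [h2]; exact L₂.mul_mem hy (L₂.inv_mem (hsw1 x hx)))
        have h4 : g * x * g⁻¹ = y ∨ g * x * g⁻¹ = y * j := by
          rw [h2] at h3
          rcases h3 with h3 | h3
          · left; exact (mul_inv_eq_one.1 h3).symm
          · right
            have : y = j * (g * x * g⁻¹) := by rw [← h3]; group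
            calc g * x * g⁻¹ = (j * j) * (g * x * g⁻¹) := by rw [hjj, one_mul]
              _ = j * (j * (g * x * g⁻¹)) := by group
              _ = j * y := by rw [← this]
              _ = y * j := (h.l2.cj y hy).symm
        have h5 : (g * x) * (g * x) = (g * x * g⁻¹) * (g * g) * x := by group
        have h6 : (g * x) * (g * x) = 1 ∨ (g * x) * (g * x) = j := by
          have e1 : y * t * x = 1 := by
            rw [hxy]
            calc y * (x * y) * x = (y * x) * (y * x) := by group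
              _ = (x * y) * (x * y) := by rw [h.comm x hx y hy]
              _ = 1 := by rw [← hxy]; exact htt
          have e2 : y * (t * j) * x = j := by
            calc y * (t * j) * x = y * t * (j * x) := by group
              _ = y * t * (x * j) := by rw [hxj]
              _ = (y * t * x) * j := by group
              _ = j := by rw [e1, one_mul]
          have e3 : y * j * t * x = j := by
            calc y * j * t * x = y * (j * t) * x := by group
              _ = y * (t * j) * x := by rw [htj]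
              _ = j := e2
          have e4 : y * j * (t * j) * x = 1 := by
            calc y * j * (t * j) * x = y * (j * t) * j * x := by group
              _ = y * (t * j) * j * x := by rw [htj]
              _ = y * t * (j * j) * x := by group
              _ = 1 := by rw [hjj, mul_one, e1]
          rw [h5]
          rcases h4 with h4 | h4 <;> rcases hgg with h7 | h7
          · rw [h4, h7]; exact Or.inl e1
          · rw [h4, h7]; exact Or.inr e2
          · rw [h4, h7]; exact Or.inr e3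
          · rw [h4, h7]; exact Or.inl e4
        rcases h6 with h6 | h6
        · exact absurd h6 (out_sq h hidx hnj hn2 hswap hgxj hgxL)
        · exact h6
      · intro g _ g' _ hgg
        exact mul_right_cancel hgg
    · rw [Set.disjoint_left]
      intro g hg hg'
      have h1 : g * g = t := hg.1.2.2
      have h2 : g * g = t * j := hg'.1.2.2
      rw [h1] at h2
      exact hj1 (left_eq_mul.1 h2)
  have hmR : 0 < (Ro j).ncard := by
    rw [Set.ncard_pos (Set.toFinite _)]
    exact ⟨m, ⟨hmj, hmt, hmm⟩, hmo⟩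
  have h1 := hin t ht1 htt
  have h2 := hin (t * j) htj1 htjj
  have h3 := hsplit t
  have h4 := hsplit (t * j)
  have h5 := hsplit j
  omega
end swap

/-- an isolated involution: `G = C(z) O(G)` -/
theorem sup_eq_top_of_comm [Finite G] {z : G} (hz : z * z = 1) {N : Subgroup G} (hN : Odd (Nat.card N))
    (h : ∀ g, z * g * z⁻¹ * g⁻¹ ∈ N) : Subgroup.centralizer ({z} : Set G) ⊔ N = ⊤ := by
  rw [eq_top_iff]
  intro g _
  have hzi : z⁻¹ = z := inv_eq_of_mul_eq_one_right hz
  obtain ⟨u, hu⟩ : ∃ u, u = z * g⁻¹ * z⁻¹ * (g⁻¹)⁻¹ := ⟨_, rfl⟩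
  have huN : u ∈ N := by rw [hu]; exact h g⁻¹
  rw [inv_inv] at hu
  have hinv : z * u * z⁻¹ = u⁻¹ := by
    rw [hu]
    calc z * (z * g⁻¹ * z⁻¹ * g) * z⁻¹ = (z * z) * g⁻¹ * z⁻¹ * g * z⁻¹ := by group
      _ = g⁻¹ * z⁻¹ * g * z⁻¹ := by rw [hz, one_mul]
      _ = g⁻¹ * z * g * z⁻¹ := by rw [hzi]
      _ = _ := by group
  have hodd : Odd (orderOf u) := by
    have h1 : orderOf u ∣ Nat.card N := by
      have := orderOf_dvd_natCard (⟨u, huN⟩ : N)
      rwa [← Subgroup.orderOf_coe] at this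
    exact Odd.of_dvd_nat hN h1
  obtain ⟨k, hk⟩ := hodd
  obtain ⟨v, hv⟩ : ∃ v, v = u ^ (k + 1) := ⟨_, rfl⟩
  have hvv : v * v = u := by
    rw [hv, ← pow_add, show k + 1 + (k + 1) = (2 * k + 1) + 1 by ring, pow_succ, ← hk, pow_orderOf_eq_one, one_mul]
  have hvN : v ∈ N := by rw [hv]; exact N.pow_mem huN _
  have hzv : z * v * z⁻¹ = v⁻¹ := by
    rw [hv, ← conj_pow, hinv, inv_pow]
  have h3 : g⁻¹ * z * g = z * v * v := by
    rw [mul_assoc z v v, hvv, hu]
    calc g⁻¹ * z * g = (z * z) * g⁻¹ * z * g := by rw [hz, one_mul]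
      _ = z * (z * g⁻¹ * z⁻¹ * g) := by rw [hzi]; group
  have h4 : z * v = v⁻¹ * z := by rw [← hzv]; group
  rw [h4] at h3
  have h5 : (g * v⁻¹) * z = z * (g * v⁻¹) := by
    have h6 : z = v * (g⁻¹ * z * g) * v⁻¹ := by rw [h3]; group
    calc (g * v⁻¹) * z = (g * v⁻¹) * (v * (g⁻¹ * z * g) * v⁻¹) := by rw [← h6]
      _ = z * (g * v⁻¹) := by group
  have h6 : g = (g * v⁻¹) * v := by group
  rw [h6]
  exact mul_mem (Subgroup.mem_sup_left (Subgroup.mem_centralizer_singleton_iff.2 h5)) (Subgroup.mem_sup_right hvN)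

end Cfsg.Agent.H19.SL2b
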