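import Mathlib
import Cfsg.Agent.H19_CA1
import Cfsg.Agent.H2_Ito
import Cfsg.Agent.H1_Coprime2

set_option autoImplicit false

/-!
Groups all of whose nonabelian subgroups are self-normalizing: Sylow subgroups.
-/

namespace Cfsg.Agent.H19.SN

open Pointwise

universe u

/-- every nonabelian subgroup is self-normalizing -/
def SNA (G : Type*) [Group G] : Prop :=
  ∀ H : Subgroup G, (¬ ∀ a ∈ H, ∀ b ∈ H, a * b = b * a) → ∀ g : G, (∀ h ∈ H, g * h * g⁻¹ ∈ H) → g ∈ H

variable {G : Type u} [Group G] [Finite G]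

omit [Finite G] in
theorem coprime_elt {p q : ℕ} (hp : p.Prime) (hq : q.Prime) (hqp : q ≠ p) {x : G} {i j : ℕ} (h1 : x ^ p ^ i = 1) (h2 : x ^ q ^ j = 1) : x = 1 := by
  have h3 : (orderOf x) ∣ p ^ i := orderOf_dvd_of_pow_eq_one h1
  have h4 : (orderOf x) ∣ q ^ j := orderOf_dvd_of_pow_eq_one h2
  have h5 : (p ^ i).Coprime (q ^ j) := Nat.Coprime.pow _ _ ((Nat.coprime_primes hp hq).2 (Ne.symm hqp))
  have h6 := Nat.Coprime.eq_one_of_dvd (h5.coprime_dvd_left h3) h4
  exact orderOf_eq_one_iff.1 h6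

theorem mem_norm_iff {H : Subgroup G} {g : G} : g ∈ Subgroup.normalizer (H : Set G) ↔ ∀ h ∈ H, g * h * g⁻¹ ∈ H := by
  constructor
  · intro h x hx; exact (Subgroup.mem_normalizer_iff.1 h x).1 hx
  · intro h
    exact Cfsg.Agent.H4.Util.mem_normalizer_of_forall h

theorem sylow_abelian (hs : SNA G) {p : ℕ} [hp : Fact p.Prime] (hnp : ¬ HasNormalPComplement p G) :
    ∀ P : Sylow p G, ∀ a ∈ (P : Subgroup G), ∀ b ∈ (P : Subgroup G), a * b = b * a := by
  classical
  -- choose a bad pair with maximal X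
  obtain ⟨Q₀, g₀, q₀, hQ₀⟩ := Cfsg.Agent.H2.Ito.exists_bad hnp
  let Bad : Subgroup G → Prop := fun Q => ∃ (g : G) (q : ℕ), IsPGroup p Q ∧
    g ∈ Subgroup.normalizer (Q : Set G) ∧ q.Prime ∧ q ≠ p ∧ (∃ k, g ^ (q ^ k) = 1) ∧ g ∉ Subgroup.centralizer (Q : Set G)
  have hfin : {Q : Subgroup G | Bad Q}.Finite := Set.toFinite _
  obtain ⟨X, hXb, hmax⟩ := hfin.exists_maximal ⟨Q₀, g₀, q₀, hQ₀⟩
  obtain ⟨g, q, hXp, hgN, hq, hqp, ⟨k, hgk⟩, hgC⟩ := hXb
  haveI : Fact q.Prime := ⟨hq⟩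
  have hgX : ∀ x ∈ X, g * x * g⁻¹ ∈ X := mem_norm_iff.1 hgN
  have hXel : ∀ x ∈ X, ∃ i, x ^ p ^ i = 1 := by
    intro x hx
    obtain ⟨i, hi⟩ := hXp ⟨x, hx⟩
    exact ⟨i, congrArg Subtype.val hi⟩
  have hgz : ∀ y ∈ Subgroup.zpowers g, y ^ q ^ k = 1 := by
    rintro y ⟨i, rfl⟩
    change (g ^ i) ^ (q ^ k) = 1
    rw [← zpow_natCast, ← zpow_mul, mul_comm, zpow_mul, zpow_natCast, hgk, one_zpow]
  have hinf : ∀ x, x ∈ X → x ∈ Subgroup.zpowers g → x = 1 := by
    intro x hx hxg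
    obtain ⟨i, hi⟩ := hXel x hx
    exact coprime_elt hp.out hq hqp hi (hgz x hxg)
  have hg1 : g ≠ 1 := by
    rintro rfl
    exact hgC (one_mem _)
  -- X abelian
  have hXa : ∀ a ∈ X, ∀ b ∈ X, a * b = b * a := by
    by_contra hcon
    exact hg1 (hinf g (hs X hcon g hgX) (Subgroup.mem_zpowers g))
  set N := Subgroup.normalizer (X : Set G) with hN
  have hXN : X ≤ N := Subgroup.le_normalizer
  set K0 := Subgroup.zpowers g ⊔ X with hK0
  have hzN : Subgroup.zpowers g ≤ N := by rwa [Subgroup.zpowers_le]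
  have hK0mem : ∀ y ∈ K0, ∃ z ∈ Subgroup.zpowers g, ∃ x ∈ X, z * x = y := by
    intro y hy
    have h1 : y ∈ ((Subgroup.zpowers g : Subgroup G) : Set G) * (X : Set G) := by
      rw [← Subgroup.coe_mul_of_left_le_normalizer_right _ _ hzN]; exact hy
    obtain ⟨z, hz, x, hx, h⟩ := h1
    exact ⟨z, hz, x, hx, h⟩
  have hK0n : ¬ ∀ a ∈ K0, ∀ b ∈ K0, a * b = b * a := by
    intro h
    apply hgC
    rw [Subgroup.mem_centralizer_iff]
    intro x hx
    exact h x (Subgroup.mem_sup_right hx) g (Subgroup.mem_sup_left (Subgroup.mem_zpowers g))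
  have hself : ∀ n ∈ N, (n * g * n⁻¹ ∈ Subgroup.zpowers g) → n ∈ K0 := by
    intro n hn hng
    apply hs K0 hK0n
    intro y hy
    obtain ⟨z, ⟨i, rfl⟩, x, hx, rfl⟩ := hK0mem y hy
    have e : n * (g ^ i * x) * n⁻¹ = (n * g * n⁻¹) ^ i * (n * x * n⁻¹) := by rw [conj_zpow]; group
    change n * (g ^ i * x) * n⁻¹ ∈ K0
    rw [e]
    exact mul_mem (Subgroup.mem_sup_left (zpow_mem hng i)) (Subgroup.mem_sup_right (mem_norm_iff.1 hn x hx))
  -- elements of N normalizing ⟨g⟩ are of the form z * x, with x commuting with g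
  have hdec : ∀ n ∈ N, (n * g * n⁻¹ ∈ Subgroup.zpowers g) → ∃ z ∈ Subgroup.zpowers g, ∃ x ∈ X, z * x = n ∧ x * g = g * x := by
    intro n hn hng
    obtain ⟨z, hz, x, hx, h⟩ := hK0mem n (hself n hn hng)
    refine ⟨z, hz, x, hx, h, ?_⟩
    have h1 : x * g * x⁻¹ ∈ Subgroup.zpowers g := by
      have e : x * g * x⁻¹ = z⁻¹ * (n * g * n⁻¹) * z := by rw [← h]; group
      rw [e]
      exact mul_mem (mul_mem (inv_mem hz) hng) hz
    have h2 : x * g * x⁻¹ * g⁻¹ = 1 := by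
      apply hinf
      · have e : x * g * x⁻¹ * g⁻¹ = x * (g * x⁻¹ * g⁻¹) := by group
        rw [e]; exact mul_mem hx (hgX _ (inv_mem hx))
      · exact mul_mem h1 (inv_mem (Subgroup.mem_zpowers g))
    rw [mul_inv_eq_one, mul_inv_eq_iff_eq_mul] at h2
    exact h2
  -- Sylow q-subgroup of N
  let gN : N := ⟨g, hgN⟩
  have hzp : IsPGroup q (Subgroup.zpowers gN) := by
    rintro ⟨y, i, rfl⟩
    refine ⟨k, ?_⟩
    apply Subtype.ext
    apply Subtype.ext
    exact hgz _ ⟨i, rfl⟩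
  obtain ⟨Y, hY⟩ := hzp.exists_le_sylow
  have hYg : (Y : Subgroup N) = Subgroup.zpowers gN := by
    by_contra hne
    have hlt : Subgroup.zpowers gN < Y := lt_of_le_of_ne hY (Ne.symm hne)
    obtain ⟨y, hyY, hyn, hyz⟩ : ∃ y ∈ (Y : Subgroup N), y * gN * y⁻¹ ∈ Subgroup.zpowers gN ∧ y ∉ Subgroup.zpowers gN := by
      haveI : Group.IsNilpotent (Y : Subgroup N) := Y.isPGroup'.isNilpotent
      have hnc := Group.normalizerCondition_of_isNilpotent (G := (Y : Subgroup N))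
      have h1 : (Subgroup.zpowers gN).subgroupOf Y < ⊤ := by
        rw [lt_top_iff_ne_top]
        intro h2
        rw [Subgroup.subgroupOf_eq_top] at h2
        exact absurd h2 (not_le_of_gt hlt)
      obtain ⟨y, hy1, hy2⟩ := SetLike.exists_of_lt (hnc _ h1)
      refine ⟨y, y.2, ?_, fun h3 => hy2 (Subgroup.mem_subgroupOf.2 h3)⟩
      have h3 := (Subgroup.mem_normalizer_iff.1 hy1 ⟨gN, hY (Subgroup.mem_zpowers gN)⟩).1
        (Subgroup.mem_subgroupOf.2 (Subgroup.mem_zpowers gN))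
      exact Subgroup.mem_subgroupOf.1 h3
    have h1 : (y : G) * g * (y : G)⁻¹ ∈ Subgroup.zpowers g := by
      obtain ⟨i, hi⟩ := hyn
      exact ⟨i, congrArg Subtype.val hi⟩
    obtain ⟨z, ⟨i, hz⟩, x, hx, hzx, hxg⟩ := hdec y y.2 h1
    have h2 : (⟨x, hXN hx⟩ : N) ∈ (Y : Subgroup N) := by
      have h3 : gN ^ i * ⟨x, hXN hx⟩ = y := by
        apply Subtype.ext
        change g ^ i * x = y
        rw [← hzx, ← hz]
      have h4 : (⟨x, hXN hx⟩ : N) = (gN ^ i)⁻¹ * y := by rw [← h3]; group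
      rw [h4]
      exact mul_mem (inv_mem (zpow_mem (hY (Subgroup.mem_zpowers gN)) i)) hyY
    obtain ⟨j, hj⟩ := Y.isPGroup' ⟨_, h2⟩
    have hj' : x ^ q ^ j = 1 := congrArg (fun y : Y => ((y : N) : G)) hj
    obtain ⟨i', hi'⟩ := hXel x hx
    have hx1 : x = 1 := coprime_elt hp.out hq hqp hi' hj'
    apply hyz
    refine ⟨i, ?_⟩
    apply Subtype.ext
    change g ^ i = y
    rw [← hzx, hx1, mul_one, ← hz]
  have hNC : Subgroup.normalizer ((Y : Subgroup N) : Set N) ≤ Subgroup.centralizer ((Y : Subgroup N) : Set N) := by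
    intro n hn
    rw [hYg] at hn ⊢
    have h1 := (Subgroup.mem_normalizer_iff.1 hn gN).1 (Subgroup.mem_zpowers gN)
    have h2 : (n : G) * g * (n : G)⁻¹ ∈ Subgroup.zpowers g := by
      obtain ⟨i, hi⟩ := h1
      exact ⟨i, congrArg Subtype.val hi⟩
    obtain ⟨z, ⟨i, hz⟩, x, hx, hzx, hxg⟩ := hdec n n.2 h2
    have h3 : (n : G) * g = g * n := by
      rw [← hzx, ← hz]
      change g ^ i * x * g = g * (g ^ i * x)
      rw [mul_assoc, hxg, ← mul_assoc, ← mul_assoc, ← zpow_add_one, ← zpow_one_add, add_comm]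
    rw [Subgroup.mem_centralizer_iff]
    rintro y ⟨j, rfl⟩
    have h4 : Commute n gN := Subtype.ext h3
    exact ((h4.zpow_right j).eq).symm
  set K := (MonoidHom.transferSylow Y hNC).ker with hK
  have hKc : K.IsComplement' (Y : Subgroup N) := MonoidHom.ker_transferSylow_isComplement' Y hNC
  have hqK : ¬ q ∣ Nat.card K := MonoidHom.not_dvd_card_ker_transferSylow Y hNC
  have hXK : X.subgroupOf N ≤ K := by
    intro x hx
    rw [hK, MonoidHom.mem_ker]
    obtain ⟨i, hi⟩ := hXel x (Subgroup.mem_subgroupOf.1 hx)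
    obtain ⟨j, hj⟩ := Y.isPGroup' (MonoidHom.transferSylow Y hNC x)
    have h1 : (MonoidHom.transferSylow Y hNC x) ^ p ^ i = 1 := by
      rw [← map_pow]
      have : x ^ p ^ i = 1 := Subtype.ext hi
      rw [this, map_one]
    exact coprime_elt (G := (Y : Subgroup N)) hp.out hq hqp h1 hj
  have hKn : K.Normal := by rw [hK]; infer_instance
  have hcop : (Nat.card (Subgroup.zpowers gN)).Coprime (Nat.card K) := by
    obtain ⟨j, hj⟩ := IsPGroup.iff_card.1 hzp
    rw [hj]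
    exact Nat.Coprime.pow_left _ ((Nat.Prime.coprime_iff_not_dvd hq).2 hqK)
  have hsolv : Group.IsSolvable (Subgroup.zpowers gN) := by
    haveI : Group.IsNilpotent (Subgroup.zpowers gN) := hzp.isNilpotent
    infer_instance
  obtain ⟨P, hP1, hP2⟩ := Cfsg.Agent.H1.Coprime.invariant_psubgroup_le (Subgroup.zpowers gN) K
    (by rw [Subgroup.normalizer_eq_top_iff.2 hKn]; exact le_top) hcop (Or.inl hsolv) p (X.subgroupOf N) hXK (hXp.comap_subtype)
    (by
      rw [Subgroup.zpowers_le]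
      apply mem_norm_iff.2
      intro x hx
      exact Subgroup.mem_subgroupOf.2 (hgX _ (Subgroup.mem_subgroupOf.1 hx)))
  set P1 := (P : Subgroup K).map K.subtype with hP1d
  have hP1p : IsPGroup p P1 := P.isPGroup'.map _
  have hXP : X ≤ P1.map N.subtype := by
    intro x hx
    exact ⟨⟨x, hXN hx⟩, hP1 (Subgroup.mem_subgroupOf.2 hx), rfl⟩
  have hPX : P1.map N.subtype ≤ X := by
    refine hmax ⟨g, q, hP1p.map _, ?_, hq, hqp, ⟨k, hgk⟩, fun h => hgC ?_⟩ hXP
    · rw [mem_norm_iff]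
      rintro _ ⟨x, hx, rfl⟩
      exact ⟨gN * x * gN⁻¹, mem_norm_iff.1 (hP2 (Subgroup.mem_zpowers gN)) x hx, rfl⟩
    · exact Subgroup.centralizer_le hXP h
  have hXeq : X = P1.map N.subtype := le_antisymm hXP hPX
  have hcX : Nat.card X = p ^ (Nat.card K).factorization p := by
    rw [hXeq, Subgroup.card_map_of_injective N.subtype_injective]
    exact Cfsg.Agent.H1.Coprime.card_map_sylow P
  have hNK : (Nat.card N).factorization p = (Nat.card K).factorization p := by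
    rw [← hKc.card_mul, Nat.factorization_mul Nat.card_pos.ne' Nat.card_pos.ne', Finsupp.add_apply]
    obtain ⟨j, hj⟩ := IsPGroup.iff_card.1 Y.isPGroup'
    have h1 : (Nat.card (Y : Subgroup N)).factorization p = 0 := by
      rw [hj]
      apply Nat.factorization_eq_zero_of_not_dvd
      intro h
      exact hqp ((Nat.prime_dvd_prime_iff_eq hp.out hq).1 (hp.out.dvd_of_dvd_pow h)).symm
    have h2 : Nat.card (Y : Subgroup N) = Nat.card Y := rfl
    rw [h1, add_zero]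
  have hcG : (Nat.card G).factorization p = (Nat.card N).factorization p := by
    apply le_antisymm
    · by_contra hlt
      push Not at hlt
      rw [hNK] at hlt
      have h1 : p ^ ((Nat.card K).factorization p + 1) ∣ Nat.card G :=
        (hp.out.pow_dvd_iff_le_factorization Nat.card_pos.ne').2 hlt
      have h2 := Sylow.prime_pow_dvd_card_normalizer h1 hcX
      have h3 := (hp.out.pow_dvd_iff_le_factorization Nat.card_pos.ne').1 h2
      change _ ≤ (Nat.card N).factorization p at h3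
      omega
    · exact (Nat.factorization_le_iff_dvd Nat.card_pos.ne' Nat.card_pos.ne').2 (Subgroup.card_subgroup_dvd_card N) p
  let S := Sylow.ofCard X (by rw [hcX, ← hNK, hcG])
  intro T
  obtain ⟨h, hT⟩ := MulAction.exists_smul_eq G S T
  intro a ha b hb
  rw [← hT] at ha hb
  rw [Cfsg.Agent.H4.Util.mem_smul_sylow] at ha hb
  have h1 : h⁻¹ * a * h * (h⁻¹ * b * h) = h⁻¹ * b * h * (h⁻¹ * a * h) := hXa _ ha _ hb
  calc a * b = h * (h⁻¹ * a * h * (h⁻¹ * b * h)) * h⁻¹ := by group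
    _ = h * (h⁻¹ * b * h * (h⁻¹ * a * h)) * h⁻¹ := by rw [h1]
    _ = _ := by group

end Cfsg.Agent.H19.SN
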