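import Mathlib

set_option autoImplicit false

namespace Cfsg.Agent.H19.Singer

variable {F K : Type*} [Field F] [Field K] [Algebra F K]

abbrev L (F K : Type*) [Field F] [Field K] [Algebra F K] : K →ₐ[F] Module.End F K := Algebra.lmul F K

abbrev M (F K : Type*) [Field F] [Field K] [Algebra F K] : Subgroup (Module.End F K)ˣ :=
  (Units.map ((Algebra.lmul F K : K →ₐ[F] Module.End F K) : K →* Module.End F K)).range

theorem mem_M {u : (Module.End F K)ˣ} : u ∈ M F K ↔ ∃ a : K, (u : Module.End F K) = L F K a := by
  constructor
  · rintro ⟨a, rfl⟩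
    exact ⟨a, rfl⟩
  · rintro ⟨a, ha⟩
    have ha0 : a ≠ 0 := by
      rintro rfl
      have h1 : (u : Module.End F K) = 0 := by rw [ha, map_zero]
      have h2 := u.mul_inv
      rw [h1, zero_mul] at h2
      have h3 := congrArg (fun f : Module.End F K => f 1) h2
      exact zero_ne_one h3
    exact ⟨Units.mk0 a ha0, Units.ext ha.symm⟩

theorem mem_M_iff_one {u : (Module.End F K)ˣ} :
    u ∈ M F K ↔ ∀ a : K, (u : Module.End F K) a = a * (u : Module.End F K) 1 := by
  rw [mem_M]
  constructor
  · rintro ⟨c, hc⟩ a
    rw [hc]
    show c * a = a * (c * 1)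
    ring
  · intro h
    refine ⟨(u : Module.End F K) 1, LinearMap.ext fun a => ?_⟩
    rw [h a, mul_comm]
    rfl

theorem of_commute {u : (Module.End F K)ˣ} (h : ∀ a : K, (u : Module.End F K) * L F K a = L F K a * u) :
    u ∈ M F K := by
  rw [mem_M_iff_one]
  intro a
  have h1 := congrArg (fun f : Module.End F K => f 1) (h a)
  have h2 : (u : Module.End F K) (a * 1) = a * (u : Module.End F K) 1 := h1
  rwa [mul_one] at h2

theorem centralizer_M : Subgroup.centralizer (M F K : Set (Module.End F K)ˣ) = M F K := by
  apply le_antisymm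
  · intro u hu
    apply of_commute
    intro a
    by_cases ha : a = 0
    · rw [ha, map_zero, mul_zero, zero_mul]
    · have h1 := Subgroup.mem_centralizer_iff.1 hu (Units.map ((Algebra.lmul F K : K →ₐ[F] Module.End F K) : K →* Module.End F K) (Units.mk0 a ha)) ⟨_, rfl⟩
      exact (congrArg Units.val h1).symm
  · rintro _ ⟨a, rfl⟩
    rw [Subgroup.mem_centralizer_iff]
    rintro _ ⟨b, rfl⟩
    rw [← map_mul, ← map_mul, mul_comm]

theorem L_injective : Function.Injective (L F K) := by
  intro a b h
  have h1 := congrArg (fun f : Module.End F K => f 1) h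
  have h2 : a * 1 = b * 1 := h1
  rwa [mul_one, mul_one] at h2

theorem card_M [Fintype K] : Nat.card (M F K) = Fintype.card K - 1 := by
  have hinj : Function.Injective (Units.map ((Algebra.lmul F K : K →ₐ[F] Module.End F K) : K →* Module.End F K)) :=
    Units.map_injective L_injective
  classical
  rw [← Nat.card_congr (MonoidHom.ofInjective hinj).toEquiv, Nat.card_eq_fintype_card, Fintype.card_units]

/-- the subalgebra of `a` with `L a` in a conjugate of `L K` -/
def sub (g : (Module.End F K)ˣ) : Subalgebra F K where
  carrier := {a | ∃ b : K, L F K a = g * L F K b * (g⁻¹ : (Module.End F K)ˣ)}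
  mul_mem' := by
    rintro a a' ⟨b, hb⟩ ⟨b', hb'⟩
    refine ⟨b * b', ?_⟩
    rw [map_mul, hb, hb', map_mul]
    simp only [mul_assoc, Units.inv_mul_cancel_left]
  add_mem' := by
    rintro a a' ⟨b, hb⟩ ⟨b', hb'⟩
    refine ⟨b + b', ?_⟩
    rw [map_add, hb, hb', map_add, mul_add, add_mul]
  algebraMap_mem' := by
    intro c
    refine ⟨algebraMap F K c, ?_⟩
    rw [AlgHom.commutes, ← Algebra.commutes, mul_assoc, Units.mul_inv, mul_one]

theorem inter_card [Fintype F] [Fintype K] (n : ℕ) (hn : 2 ≤ n) (hdim : Module.finrank F K = n)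
    (g : (Module.End F K)ˣ) (hg : (M F K).map (MulAut.conj g).toMonoidHom ≠ M F K) :
    ∃ r : ℕ, 1 ≤ r ∧ r ∣ n ∧ r < n ∧ Nat.card ↥((M F K).map (MulAut.conj g).toMonoidHom ⊓ M F K) ∣ Fintype.card F ^ r - 1 := by
  classical
  let E0 := sub (F := F) g
  have hinvE : ∀ a ∈ E0, a⁻¹ ∈ E0 := by
    intro a ha
    by_cases h0 : a = 0
    · rw [h0, inv_zero]; exact E0.zero_mem
    · have h1 : a ^ (Fintype.card K - 1) = 1 := FiniteField.pow_card_sub_one_eq_one a h0
      have h3 : 2 ≤ Fintype.card K := Fintype.one_lt_card
      have h2 : a⁻¹ = a ^ (Fintype.card K - 2) := by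
        apply inv_eq_of_mul_eq_one_right
        rw [← pow_succ', show Fintype.card K - 2 + 1 = Fintype.card K - 1 by omega, h1]
      rw [h2]
      exact E0.pow_mem ha _
  let E : IntermediateField F K := { E0 with inv_mem' := hinvE }
  have hE : ∀ a, a ∈ E ↔ ∃ b : K, L F K a = g * L F K b * (g⁻¹ : (Module.End F K)ˣ) := fun a => Iff.rfl
  haveI : FiniteDimensional F K := FiniteDimensional.of_finrank_pos (by omega)
  have hmul := Module.finrank_mul_finrank F E K
  have hpos : 0 < Module.finrank F E := Module.finrank_pos
  refine ⟨Module.finrank F E, hpos, ⟨_, (hdim ▸ hmul).symm⟩, ?_, ?_⟩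
  · rcases Nat.lt_or_ge (Module.finrank F E) n with h | h
    · exact h
    · exfalso
      apply hg
      have hone : Module.finrank E K = 1 := by
        have h1 : 0 < Module.finrank E K := Module.finrank_pos
        rw [hdim] at hmul
        nlinarith
      have hEtop : E = ⊤ := IntermediateField.finrank_eq_one_iff_eq_top.1 hone
      -- all L a in the conjugate
      haveI : Finite (Module.End F K) := Module.finite_of_finite F
      haveI : Finite (Module.End F K)ˣ := inferInstance
      symm
      apply Subgroup.eq_of_le_of_card_ge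
      · intro u hu
        obtain ⟨a, ha⟩ := mem_M.1 hu
        have haE : a ∈ E := by rw [hEtop]; trivial
        obtain ⟨b, hb⟩ := (hE a).1 haE
        have hu' : g⁻¹ * u * g ∈ M F K := by
          rw [mem_M]
          refine ⟨b, ?_⟩
          rw [Units.val_mul, Units.val_mul, ha, hb]
          simp only [mul_assoc, Units.inv_mul_cancel_left, Units.inv_mul, mul_one]
        refine ⟨_, hu', ?_⟩
        show g * (g⁻¹ * u * g) * g⁻¹ = u
        group
      · exact (Nat.card_congr ((M F K).equivMapOfInjective _ (MulAut.conj g).injective).toEquiv).symm.le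
  · -- M ∩ M^g embeds in Eˣ
    let ψ : Eˣ →* (Module.End F K)ˣ := Units.map (((L F K).comp E.val : E →ₐ[F] Module.End F K) : E →* Module.End F K)
    have hψ : Function.Injective ψ := Units.map_injective (by
      intro a b hab
      exact Subtype.ext (L_injective hab))
    have hr : ψ.range = (M F K).map (MulAut.conj g).toMonoidHom ⊓ M F K := by
      apply le_antisymm
      · rintro _ ⟨e, rfl⟩
        refine ⟨?_, mem_M.2 ⟨_, rfl⟩⟩
        obtain ⟨b, hb⟩ := (hE _).1 (e : E).2
        have hu' : g⁻¹ * ψ e * g ∈ M F K := by
          rw [mem_M]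
          refine ⟨b, ?_⟩
          rw [Units.val_mul, Units.val_mul]
          have : ((ψ e : (Module.End F K)ˣ) : Module.End F K) = L F K ((e : E) : K) := rfl
          rw [this, hb]
          simp only [mul_assoc, Units.inv_mul_cancel_left, Units.inv_mul, mul_one]
        refine ⟨_, hu', ?_⟩
        show g * (g⁻¹ * ψ e * g) * g⁻¹ = ψ e
        group
      · rintro u ⟨⟨v, hv, rfl⟩, hu⟩
        obtain ⟨b, hb⟩ := mem_M.1 hv
        obtain ⟨a, ha⟩ := mem_M.1 hu
        have haE : a ∈ E := by
          rw [hE]
          refine ⟨b, ?_⟩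
          rw [← ha, ← hb]
          rfl
        have ha0 : a ≠ 0 := by
          rintro rfl
          rw [map_zero] at ha
          exact Units.ne_zero _ ha
        refine ⟨Units.mk0 ⟨a, haE⟩ (fun h => ha0 (congrArg Subtype.val h)), ?_⟩
        apply Units.ext
        exact ha.symm
    rw [← hr, ← Nat.card_congr (MonoidHom.ofInjective hψ).toEquiv]
    haveI : Fintype E := Fintype.ofFinite E
    rw [Nat.card_eq_fintype_card, Fintype.card_units, Module.card_eq_pow_finrank (K := F) (V := E)]

/-- the normalizer of the Singer group -/
theorem card_normalizer [Fintype F] [Fintype K] :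
    Nat.card (Subgroup.normalizer (M F K : Set (Module.End F K)ˣ)) =
      Module.finrank F K * (Fintype.card K - 1) := by
  classical
  haveI : Finite K := inferInstance
  haveI : FiniteDimensional F K := inferInstance
  -- map (σ, c) ↦ L c ∘ σ
  let f : Kˣ × (K ≃ₐ[F] K) → (Module.End F K)ˣ := fun w =>
    Units.map ((Algebra.lmul F K : K →ₐ[F] Module.End F K) : K →* Module.End F K) w.1 *
      { val := w.2.toLinearMap, inv := w.2.symm.toLinearMap
        val_inv := LinearMap.ext fun x => w.2.apply_symm_apply x
        inv_val := LinearMap.ext fun x => w.2.symm_apply_apply x }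
  have hfa : ∀ w a, ((f w : (Module.End F K)ˣ) : Module.End F K) a = (w.1 : K) * w.2 a := fun w a => rfl
  have hinj : Function.Injective f := by
    rintro ⟨c, σ⟩ ⟨c', σ'⟩ h
    have h1 : ∀ a, (c : K) * σ a = (c' : K) * σ' a := by
      intro a
      rw [← hfa (c, σ) a, ← hfa (c', σ') a, h]
    have h2 : (c : K) = c' := by
      have := h1 1
      rwa [map_one, map_one, mul_one, mul_one] at this
    have h3 : σ = σ' := by
      apply AlgEquiv.ext
      intro a
      have := h1 a
      rw [h2] at this
      exact mul_left_cancel₀ c'.ne_zero this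
    rw [Units.ext h2, h3]
  have hrange : ∀ u : (Module.End F K)ˣ, u ∈ Subgroup.normalizer (M F K : Set (Module.End F K)ˣ) ↔ u ∈ Set.range f := by
    intro u
    constructor
    · intro hu
      -- conjugation of L a
      have h1 : ∀ a : K, ∃ b : K, (u : Module.End F K) * L F K a = L F K b * u := by
        intro a
        by_cases ha : a = 0
        · exact ⟨0, by rw [ha, map_zero, mul_zero, zero_mul]⟩
        · have h2 := (Subgroup.mem_normalizer_iff.1 hu (Units.map ((Algebra.lmul F K : K →ₐ[F] Module.End F K) : K →* Module.End F K) (Units.mk0 a ha))).1 ⟨_, rfl⟩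
          obtain ⟨b, hb⟩ := mem_M.1 h2
          refine ⟨b, ?_⟩
          rw [← hb]
          rw [← Units.val_mul]
          rw [inv_mul_cancel_right]
          rfl
      choose σ hσ using h1
      have hu1 : (u : Module.End F K) 1 ≠ 0 := by
        intro h
        have h2 : (u⁻¹ : (Module.End F K)ˣ).1 ((u : Module.End F K) 1) = 1 := by
          have := congrArg (fun f : Module.End F K => f 1) u.inv_mul
          exact this
        rw [h, map_zero] at h2
        exact zero_ne_one h2
      have hua : ∀ a b, (u : Module.End F K) (a * b) = σ a * (u : Module.End F K) b := by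
        intro a b
        have := congrArg (fun f : Module.End F K => f b) (hσ a)
        exact this
      have hcan : ∀ x y : K, x * (u : Module.End F K) 1 = y * (u : Module.End F K) 1 → x = y :=
        fun x y h => mul_right_cancel₀ hu1 h
      have hmul : ∀ a b, σ (a * b) = σ a * σ b := by
        intro a b
        apply hcan
        rw [← hua, mul_assoc (a) b 1, hua, hua, ← mul_assoc]
      have hadd : ∀ a b, σ (a + b) = σ a + σ b := by
        intro a b
        apply hcan
        rw [add_mul (σ a), ← hua, ← hua, ← hua, ← map_add, ← add_mul]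
      have halg : ∀ c : F, σ (algebraMap F K c) = algebraMap F K c := by
        intro c
        apply hcan
        rw [← hua, ← Algebra.smul_def, map_smul, Algebra.smul_def]
      have hone : σ 1 = 1 := by
        have := halg 1
        rwa [map_one] at this
      have hzero : σ 0 = 0 := by
        have := halg 0
        rwa [map_zero] at this
      let τ : K →ₐ[F] K :=
        { toFun := σ, map_one' := hone, map_mul' := hmul, map_zero' := hzero, map_add' := hadd, commutes' := halg }
      have hτ : Function.Bijective τ := Finite.injective_iff_bijective.1 τ.toRingHom.injective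
      refine ⟨(Units.mk0 _ hu1, AlgEquiv.ofBijective τ hτ), ?_⟩
      apply Units.ext
      apply LinearMap.ext
      intro a
      rw [hfa]
      have := hua a 1
      rw [mul_one] at this
      rw [this, mul_comm]
      rfl
    · rintro ⟨⟨c, σ⟩, rfl⟩
      rw [Subgroup.mem_normalizer_iff]
      have key : ∀ (v : (Module.End F K)ˣ), v ∈ M F K → f (c, σ) * v * (f (c, σ))⁻¹ ∈ M F K := by
        intro v hv
        obtain ⟨a, ha⟩ := mem_M.1 hv
        rw [mem_M]
        refine ⟨σ a, ?_⟩
        have h1 : ((f (c, σ) : (Module.End F K)ˣ) : Module.End F K) * v = L F K (σ a) * (f (c, σ) : (Module.End F K)ˣ) := by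
          apply LinearMap.ext
          intro b
          rw [ha]
          show ((f (c, σ) : (Module.End F K)ˣ) : Module.End F K) (a * b) = σ a * ((f (c, σ) : (Module.End F K)ˣ) : Module.End F K) b
          rw [hfa, hfa]
          show (c : K) * σ (a * b) = σ a * ((c : K) * σ b)
          rw [map_mul]; ring
        rw [Units.val_mul, Units.val_mul, h1, mul_assoc, Units.mul_inv, mul_one]
      have key2 : (M F K).map (MulAut.conj (f (c, σ))).toMonoidHom = M F K := by
        haveI : Finite (Module.End F K) := Module.finite_of_finite F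
        haveI : Finite (Module.End F K)ˣ := inferInstance
        apply Subgroup.eq_of_le_of_card_ge
        · rintro _ ⟨v, hv, rfl⟩
          exact key v hv
        · exact (Nat.card_congr ((M F K).equivMapOfInjective _ (MulAut.conj (f (c, σ))).injective).toEquiv).le
      intro v
      constructor
      · exact key v
      · intro hv
        rw [← key2] at hv
        obtain ⟨w, hw, hwv⟩ := hv
        have h2 : f (c, σ) * w * (f (c, σ))⁻¹ = f (c, σ) * v * (f (c, σ))⁻¹ := hwv
        have h3 : w = v := by
          have := mul_right_cancel h2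
          exact mul_left_cancel this
        rwa [← h3]
  have hset : (Subgroup.normalizer (M F K : Set (Module.End F K)ˣ) : Set (Module.End F K)ˣ) = Set.range f :=
    Set.ext hrange
  have h1 : Nat.card (Subgroup.normalizer (M F K : Set (Module.End F K)ˣ)) = Nat.card (Set.range f) := by
    rw [← hset]
    rfl
  rw [h1, Nat.card_range_of_injective hinj, Nat.card_prod, mul_comm]
  congr 1
  · exact IsGalois.card_aut_eq_finrank F K
  · rw [Nat.card_eq_fintype_card, Fintype.card_units]

end Cfsg.Agent.H19.Singer
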