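import Mathlib

set_option autoImplicit false
open Equiv MulAction Subgroup

namespace Cfsg.Agent.H19.SymIdx

theorem lt_choose {n a : ℕ} (h1 : 2 ≤ a) (h2 : a + 2 ≤ n) : n < n.choose a := by
  induction n generalizing a with
  | zero => omega
  | succ n ih =>
    obtain ⟨b, rfl⟩ : ∃ b, a = b + 1 := ⟨a - 1, by omega⟩
    rw [Nat.choose_succ_succ, Nat.succ_eq_add_one]
    have hpos : 0 < n.choose (b + 1) := Nat.choose_pos (by omega)
    have hpos' : 0 < n.choose b := Nat.choose_pos (by omega)
    rcases Nat.lt_or_ge b 2 with hb | hb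
    · have : b = 1 := by omega
      subst this
      rw [Nat.choose_one_right]
      rcases Nat.lt_or_ge n (1 + 1 + 2) with h | h
      · have : n = 3 := by omega
        subst this
        decide
      · have := ih (a := 1 + 1) (by omega) h
        rw [Nat.choose_one_right] at *
        omega
    · have := ih (a := b) hb (by omega)
      omega

theorem dfac {n k : ℕ} (hk : 2 ≤ k) (hn : 2 * k ≤ n) (h6 : ¬ (n = 6 ∧ k = 3)) :
    (n - 2 * k).factorial * 2 ^ k * k.factorial ≠ (n - 2).factorial * 2 := by
  obtain ⟨m, rfl⟩ : ∃ m, n = m + 2 * k := ⟨n - 2 * k, by omega⟩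
  obtain ⟨j, rfl⟩ : ∃ j, k = j + 2 := ⟨k - 2, by omega⟩
  have e1 : m + 2 * (j + 2) - 2 * (j + 2) = m := by omega
  have e2 : m + 2 * (j + 2) - 2 = m + (2 * j + 2) := by omega
  rw [e1, e2]
  -- (m + (2j+2))! = m! * ascFactorial (m+1) (2j+2)
  rw [← Nat.factorial_mul_ascFactorial m (2 * j + 2)]
  have hm : 0 < m.factorial := Nat.factorial_pos m
  intro h
  have h1 : 2 ^ (j + 2) * (j + 2).factorial = (m + 1).ascFactorial (2 * j + 2) * 2 := by
    have : m.factorial * (2 ^ (j + 2) * (j + 2).factorial) =
        m.factorial * ((m + 1).ascFactorial (2 * j + 2) * 2) := by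
      rw [← mul_assoc, h, mul_assoc]
    exact Nat.eq_of_mul_eq_mul_left hm this
  rcases Nat.lt_or_ge j 2 with hj | hj
  · interval_cases j
    · -- k = 2 : 8 = (m+1)(m+2) * 2
      have h2 : (m + 1).ascFactorial 2 = (m + 1) * (m + 2) := by
        simp [Nat.ascFactorial]; ring
      simp only [Nat.mul_zero, Nat.zero_add] at h1
      rw [h2] at h1
      have h3 : (m + 1) * (m + 2) = 4 := by
        have : (2 : ℕ) ^ 2 * Nat.factorial 2 = 8 := by decide
        omega
      have : m ≤ 1 := by nlinarith
      interval_cases m <;> omega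
    · have h2 : (m + 1).ascFactorial (2 * 1 + 2) = (m + 1) * (m + 2) * (m + 3) * (m + 4) := by
        simp [Nat.ascFactorial]; ring
      rw [h2] at h1
      have h4 : m ≠ 0 := by
        rintro rfl
        exact h6 ⟨by norm_num, by norm_num⟩
      have h3 : (m + 1) * (m + 2) * (m + 3) * (m + 4) = 24 := by
        have : (2 : ℕ) ^ (1 + 2) * Nat.factorial (1 + 2) = 48 := by decide
        omega
      have h5 : 2 * 3 * 4 * 5 ≤ (m + 1) * (m + 2) * (m + 3) * (m + 4) := by
        gcongr <;> omega
      omega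
  · -- k ≥ 4
    have h2 : (2 * j + 2).factorial ≤ (m + 1).ascFactorial (2 * j + 2) := by
      rw [Nat.ascFactorial_eq_factorial_mul_choose]
      exact Nat.le_mul_of_pos_right _ (Nat.choose_pos (by omega))
    have h3 : ∀ j, 2 ≤ j → 2 ^ (j + 2) * (j + 2).factorial < (2 * j + 2).factorial * 2 := by
      intro j hj
      induction j, hj using Nat.le_induction with
      | base => decide
      | succ j hj ih =>
        have e3 : (2 * (j + 1) + 2).factorial = (2 * j + 4) * ((2 * j + 3) * (2 * j + 2).factorial) := by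
          rw [show 2 * (j + 1) + 2 = (2 * j + 3) + 1 from by ring, Nat.factorial_succ,
            show 2 * j + 3 = (2 * j + 2) + 1 from by ring, Nat.factorial_succ]
        have e4 : (2 : ℕ) ^ (j + 1 + 2) * (j + 1 + 2).factorial =
            (2 * (j + 3)) * (2 ^ (j + 2) * (j + 2).factorial) := by
          rw [show j + 1 + 2 = (j + 2) + 1 from by ring, Nat.factorial_succ, pow_succ]; ring
        rw [e3, e4]
        calc (2 * (j + 3)) * (2 ^ (j + 2) * (j + 2).factorial)
            < (2 * (j + 3)) * ((2 * j + 2).factorial * 2) := by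
              apply Nat.mul_lt_mul_of_pos_left ih (by omega)
          _ ≤ ((2 * j + 4) * (2 * j + 3)) * ((2 * j + 2).factorial * 2) := by
              apply Nat.mul_le_mul_right
              nlinarith
          _ = _ := by ring
    have := h3 j hj
    omega

variable {Ω : Type*} [Fintype Ω] [DecidableEq Ω]

theorem stab_of_intrans (H : Subgroup (Perm Ω)) (hH : H.index = Fintype.card Ω)
    (hint : ¬ IsPretransitive H Ω) : ∃ x : Ω, H = stabilizer (Perm Ω) x := by
  -- get an orbit
  have hne : Nonempty Ω := by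
    by_contra hcon
    rw [not_nonempty_iff] at hcon
    exact hint ⟨fun x => (hcon.false x).elim⟩
  obtain ⟨x⟩ := hne
  set s : Set Ω := orbit H x with hs
  have hsu : s ≠ Set.univ := by
    intro h
    exact hint ((isPretransitive_iff_orbit_eq_univ (G := H) x).2 h)
  have hxs : x ∈ s := mem_orbit_self x
  obtain ⟨y, hy⟩ : ∃ y, y ∉ s := by
    by_contra hcon
    push Not at hcon
    exact hsu (Set.eq_univ_of_forall hcon)
  have hHs : ∀ h ∈ H, ∀ z, z ∈ s ↔ h • z ∈ s := by
    intro h hh z
    have : h • z = (⟨h, hh⟩ : H) • z := rfl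
    rw [this, hs]
    constructor
    · intro hz
      exact (smul_orbit (⟨h, hh⟩ : H) x) ▸ Set.smul_mem_smul_set hz
    · intro hz
      rw [← smul_orbit (⟨h, hh⟩ : H) x] at hz
      exact Set.smul_mem_smul_set_iff.1 hz
  set a := s.ncard with ha
  have hfin : s.Finite := Set.toFinite s
  have ha1 : 0 < a := (Set.ncard_pos hfin).2 ⟨x, hxs⟩
  have ha2 : a < Fintype.card Ω := by
    rw [← Nat.card_eq_fintype_card, ← Set.ncard_univ]
    exact Set.ncard_lt_ncard (Set.ssubset_univ_iff.2 hsu) Set.finite_univ
  -- fixed point case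
  have hfix : ∀ z, (∀ h ∈ H, h z = z) → ∃ x : Ω, H = stabilizer (Perm Ω) x := by
    intro z hz
    refine ⟨z, ?_⟩
    have hle : H ≤ stabilizer (Perm Ω) z := fun h hh => hz h hh
    have hidx : (stabilizer (Perm Ω) z).index = Fintype.card Ω := by
      rw [index_stabilizer_of_transitive (Perm Ω) z, Nat.card_eq_fintype_card]
    have h1 := Subgroup.relIndex_mul_index hle
    rw [hH, hidx] at h1
    have hpos : 0 < Fintype.card Ω := Fintype.card_pos_iff.2 ⟨x⟩
    have h2 : H.relIndex (stabilizer (Perm Ω) z) = 1 := by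
      exact Nat.eq_of_mul_eq_mul_right hpos (by rw [h1, one_mul])
    exact le_antisymm hle (Subgroup.relIndex_eq_one.1 h2)
  rcases Nat.lt_or_ge a 2 with h2 | h2
  · -- s = {x}
    have : a = 1 := by omega
    obtain ⟨w, hw⟩ := Set.ncard_eq_one.1 (ha ▸ this)
    rw [hw] at hxs hHs
    rw [Set.mem_singleton_iff] at hxs
    subst hxs
    apply hfix x
    intro h hh
    exact (hHs h hh x).1 rfl
  · rcases Nat.lt_or_ge (Fintype.card Ω) (a + 2) with h3 | h3
    · -- complement a point
      have hc : sᶜ.ncard = 1 := by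
        have := Set.ncard_add_ncard_compl s
        rw [Nat.card_eq_fintype_card, ← ha] at this
        omega
      obtain ⟨w, hw⟩ := Set.ncard_eq_one.1 hc
      have hHc : ∀ h ∈ H, ∀ z, z ∈ sᶜ ↔ h • z ∈ sᶜ := fun h hh z => not_congr (hHs h hh z)
      rw [hw] at hHc
      apply hfix w
      intro h hh
      exact (hHc h hh w).1 rfl
    · exfalso
      have hlt := lt_choose h2 h3
      let S : Set.powersetCard Ω a := ⟨hfin.toFinset, by
        rw [Set.powersetCard.mem_iff, ← Set.ncard_eq_toFinset_card s hfin]⟩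
      have htr : IsPretransitive (Perm Ω) (Set.powersetCard Ω a) := Set.powersetCard.isPretransitive
      have hidx : (stabilizer (Perm Ω) S).index = (Fintype.card Ω).choose a := by
        rw [index_stabilizer_of_transitive (Perm Ω) S, Set.powersetCard.card, Nat.card_eq_fintype_card]
      have hle : H ≤ stabilizer (Perm Ω) S := by
        intro h hh
        rw [mem_stabilizer_iff]
        apply Subtype.ext
        rw [Set.powersetCard.coe_smul]
        ext z
        rw [Finset.mem_smul_finset]
        simp only [S, Set.Finite.mem_toFinset]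
        constructor
        · rintro ⟨w, hw, rfl⟩
          exact (hHs h hh w).1 hw
        · intro hz
          refine ⟨h⁻¹ • z, ?_, by simp⟩
          exact (hHs h⁻¹ (H.inv_mem hh) z).1 hz
      have h1 := Subgroup.index_dvd_of_le hle
      rw [hidx, hH] at h1
      have := Nat.le_of_dvd (Fintype.card_pos_iff.2 ⟨x⟩) h1
      omega

theorem card_cent_swap {τ : Perm Ω} (h : τ.IsSwap) :
    Nat.card (Subgroup.centralizer {τ}) = (Fintype.card Ω - 2).factorial * 2 := by
  rw [Equiv.Perm.nat_card_centralizer, Equiv.Perm.isSwap_iff_cycleType.1 h]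
  simp

theorem type_of_order_two {σ : Perm Ω} (h : orderOf σ = 2)
    (hc : Nat.card (Subgroup.centralizer {σ}) = (Fintype.card Ω - 2).factorial * 2) :
    σ.IsSwap ∨ (Fintype.card Ω = 6 ∧ σ.cycleType = Multiset.replicate 3 2) := by
  obtain ⟨m, hm⟩ := Equiv.Perm.cycleType_prime_order (σ := σ) (by rw [h]; exact Nat.prime_two)
  rw [h] at hm
  rcases Nat.eq_zero_or_pos m with rfl | hm0
  · left
    rw [Equiv.Perm.isSwap_iff_cycleType, hm]
    rfl
  · right
    have hle : 2 * (m + 1) ≤ Fintype.card Ω := by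
      have h1 := Equiv.Perm.sum_cycleType σ
      rw [hm, Multiset.sum_replicate] at h1
      have h2 : σ.support.card ≤ Fintype.card Ω := Finset.card_le_univ _
      simp only [smul_eq_mul] at h1
      omega
    have hk : (Fintype.card Ω - 2 * (m + 1)).factorial * 2 ^ (m + 1) * (m + 1).factorial =
        (Fintype.card Ω - 2).factorial * 2 := by
      rw [← hc, Equiv.Perm.nat_card_centralizer, hm]
      rw [Multiset.sum_replicate, Multiset.prod_replicate, smul_eq_mul, mul_comm (m + 1) 2]
      congr 1
      rw [Multiset.toFinset_replicate, if_neg (by omega)]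
      simp
    by_contra hcon
    refine dfac (n := Fintype.card Ω) (k := m + 1) (by omega) hle ?_ hk
    rintro ⟨h6, h3⟩
    apply hcon
    refine ⟨h6, ?_⟩
    rw [hm, h3]

theorem card_cent_equiv {G H : Type*} [Group G] [Group H] (φ : G ≃* H) (x : G) :
    Nat.card (Subgroup.centralizer {φ x}) = Nat.card (Subgroup.centralizer {x}) := by
  symm
  apply Nat.card_congr
  refine φ.toEquiv.subtypeEquiv ?_
  intro a
  simp only [Subgroup.mem_centralizer_iff, Set.mem_singleton_iff, forall_eq]
  constructor
  · intro h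
    show φ x * φ a = φ a * φ x
    rw [← map_mul, h, map_mul]
  · intro h
    apply φ.injective
    rw [map_mul, map_mul]
    exact h

variable {X : Type*} [Fintype X] [DecidableEq X]

theorem swap_order {τ : Perm Ω} (h : τ.IsSwap) : orderOf τ = 2 := h.isCycle.orderOf.trans
  (Equiv.Perm.card_support_eq_two.2 h)

theorem preimage_swap (φ : Perm Ω ≃* Perm X) (hc : Fintype.card X = Fintype.card Ω) {τ : Perm X}
    (hτ : τ.IsSwap) : (φ.symm τ).IsSwap ∨
      (Fintype.card Ω = 6 ∧ (φ.symm τ).cycleType = Multiset.replicate 3 2) := by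
  apply type_of_order_two
  · rw [show orderOf (φ.symm τ) = orderOf τ from φ.symm.orderOf_eq τ]
    exact swap_order hτ
  · rw [card_cent_equiv φ.symm τ, card_cent_swap hτ, hc]

/-- if preimages of swaps are swaps then preimages of point stabilizers are point stabilizers -/
theorem comap_stab (φ : Perm Ω ≃* Perm X) (hc : Fintype.card X = Fintype.card Ω)
    (h2 : 2 ≤ Fintype.card Ω) (hφ : ∀ τ : Perm X, τ.IsSwap → (φ.symm τ).IsSwap) (x : X) :
    ∃ y : Ω, (stabilizer (Perm X) x).comap (φ : Perm Ω →* Perm X) = stabilizer (Perm Ω) y := by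
  have hidx : ((stabilizer (Perm X) x).comap (φ : Perm Ω →* Perm X)).index = Fintype.card Ω := by
    rw [Subgroup.index_comap_of_surjective _ φ.surjective, index_stabilizer_of_transitive (Perm X) x,
      Nat.card_eq_fintype_card, hc]
  apply stab_of_intrans _ hidx
  intro htr
  have hgen : closure {τ : Perm X | τ.IsSwap ∧ τ x = x} = stabilizer (Perm X) x := by
    apply le_antisymm
    · rw [closure_le]
      rintro τ ⟨_, h⟩
      exact h
    · intro σ hσ
      rw [mem_stabilizer_iff] at hσ
      rw [_root_.mem_closure_isSwap (fun τ hτ => hτ.1)]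
      refine ⟨Set.toFinite _, ?_⟩
      intro y
      by_cases hy : y = x
      · rw [hy, show σ x = x from hσ]
        exact mem_orbit_self x
      · by_cases hy2 : σ y = y
        · rw [hy2]; exact mem_orbit_self y
        · refine ⟨⟨swap y (σ y), subset_closure ⟨⟨y, σ y, Ne.symm hy2, rfl⟩, ?_⟩⟩, ?_⟩
          · apply swap_apply_of_ne_of_ne (Ne.symm hy)
            intro h
            apply hy
            apply σ.injective
            rw [← h]; exact hσ.symm
          · exact swap_apply_left y (σ y)
  have hgen2 : closure ((φ.symm : Perm X →* Perm Ω) '' {τ : Perm X | τ.IsSwap ∧ τ x = x}) =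
      (stabilizer (Perm X) x).comap (φ : Perm Ω →* Perm X) := by
    rw [← MonoidHom.map_closure, hgen]
    rw [Subgroup.map_symm_eq_iff_map_eq]
    rw [Subgroup.map_comap_eq_self_of_surjective]
    exact φ.surjective
  have htop : (stabilizer (Perm X) x).comap (φ : Perm Ω →* Perm X) = ⊤ := by
    rw [← hgen2] at htr ⊢
    apply _root_.closure_of_isSwap_of_isPretransitive
    rintro _ ⟨τ, ⟨hτ, _⟩, rfl⟩
    exact hφ τ hτ
  rw [htop, Subgroup.index_top] at hidx
  omega

theorem alt_index (h2 : 2 ≤ Fintype.card Ω) : (alternatingGroup Ω).index = 2 := by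
  haveI : Nontrivial Ω := Fintype.one_lt_card_iff_nontrivial.1 (by omega)
  exact alternatingGroup.index_eq_two

/-- a subgroup of index different from 1, 2 is core-free -/
theorem core_bot (h5 : 5 ≤ Fintype.card Ω) (H : Subgroup (Perm Ω)) (h1 : H.index ≠ 1) (h2 : H.index ≠ 2) :
    H.normalCore = ⊥ := by
  by_contra hcon
  have hnt : Nontrivial H.normalCore := (Subgroup.nontrivial_iff_ne_bot _).2 hcon
  have hle : alternatingGroup Ω ≤ H.normalCore :=
    Equiv.Perm.alternatingGroup_le_of_normal (by rwa [Nat.card_eq_fintype_card]) hnt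
  have hle2 := hle.trans (Subgroup.normalCore_le H)
  have h3 := Subgroup.index_dvd_of_le hle2
  rw [alt_index (by omega)] at h3
  rcases (Nat.dvd_prime Nat.prime_two).1 h3 with h | h
  · exact h1 h
  · exact h2 h

theorem toPerm_inj {G : Type*} [Group G] (H : Subgroup G) (h : H.normalCore = ⊥) :
    Function.Injective (toPermHom G (G ⧸ H)) := by
  rw [← MonoidHom.ker_eq_bot_iff, ← h]
  exact (Subgroup.normalCore_eq_ker H).symm

theorem exists_iso (h5 : 5 ≤ Fintype.card Ω) (H : Subgroup (Perm Ω)) (hH : H.index = Fintype.card Ω) :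
    ∃ (φ : Perm Ω ≃* Perm (Perm Ω ⧸ H)),
      H = (stabilizer (Perm (Perm Ω ⧸ H)) ((1 : Perm Ω) : Perm Ω ⧸ H)).comap
        (φ : Perm Ω →* Perm (Perm Ω ⧸ H)) := by
  classical
  have hinj := toPerm_inj H (core_bot h5 H (by omega) (by omega))
  have hcard : Nat.card (Perm Ω) = Nat.card (Perm (Perm Ω ⧸ H)) := by
    rw [Nat.card_perm, Nat.card_perm, ← Subgroup.index_eq_card, hH, Nat.card_eq_fintype_card]
  haveI : Finite (Perm (Perm Ω ⧸ H)) := inferInstance
  have hbij : Function.Bijective (toPermHom (Perm Ω) (Perm Ω ⧸ H)) :=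
    (Nat.bijective_iff_injective_and_card _).2 ⟨hinj, hcard⟩
  refine ⟨MulEquiv.ofBijective _ hbij, ?_⟩
  ext g
  rw [Subgroup.mem_comap, mem_stabilizer_iff]
  show g ∈ H ↔ g • ((1 : Perm Ω) : Perm Ω ⧸ H) = ((1 : Perm Ω) : Perm Ω ⧸ H)
  rw [← mem_stabilizer_iff, stabilizer_quotient]

end Cfsg.Agent.H19.SymIdx
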