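import Mathlib
import Cfsg.Agent.H19_SymIdx

set_option autoImplicit false
set_option linter.unusedSectionVars false
open Equiv MulAction Subgroup

namespace Cfsg.Agent.H19.SymIdx

variable {Ω X : Type*} [Fintype Ω] [DecidableEq Ω] [Fintype X] [DecidableEq X]

/-- conjugation of pulled-back point stabilizers -/
theorem conj_comap (φ : Perm Ω ≃* Perm X) (g : Perm Ω) (x : X) :
    Subgroup.map (MulAut.conj g).toMonoidHom ((stabilizer (Perm X) x).comap (φ : Perm Ω →* Perm X)) =
      (stabilizer (Perm X) (φ g x)).comap (φ : Perm Ω →* Perm X) := by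
  ext h
  rw [Subgroup.mem_map, Subgroup.mem_comap, mem_stabilizer_iff]
  constructor
  · rintro ⟨k, hk, rfl⟩
    rw [Subgroup.mem_comap, mem_stabilizer_iff] at hk
    have hk' : φ k x = x := hk
    show φ (g * k * g⁻¹) (φ g x) = φ g x
    rw [← Perm.mul_apply, ← map_mul, inv_mul_cancel_right, map_mul, Perm.mul_apply, hk']
  · intro hh
    have hh' : φ h (φ g x) = φ g x := hh
    refine ⟨g⁻¹ * h * g, ?_, ?_⟩
    · rw [Subgroup.mem_comap, mem_stabilizer_iff]
      show φ (g⁻¹ * h * g) x = x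
      rw [map_mul, map_mul, Perm.mul_apply, Perm.mul_apply, hh', ← Perm.mul_apply, ← map_mul,
        inv_mul_cancel, map_one, Perm.one_apply]
    · show g * (g⁻¹ * h * g) * g⁻¹ = h
      group

theorem conj_stab (g : Perm Ω) (x : Ω) :
    Subgroup.map (MulAut.conj g).toMonoidHom (stabilizer (Perm Ω) x) = stabilizer (Perm Ω) (g x) :=
  conj_comap (MulEquiv.refl _) g x

theorem swap_conj {σ τ : Perm Ω} (h : σ.IsSwap) (hc : IsConj σ τ) : τ.IsSwap := by
  rw [Equiv.Perm.isSwap_iff_cycleType] at h ⊢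
  rw [← h]
  exact ((Equiv.Perm.isConj_iff_cycleType_eq).1 hc).symm

theorem swaps_conj {σ τ : Perm Ω} (h : σ.IsSwap) (h' : τ.IsSwap) : IsConj σ τ := by
  rw [Equiv.Perm.isConj_iff_cycleType_eq, Equiv.Perm.isSwap_iff_cycleType.1 h,
    Equiv.Perm.isSwap_iff_cycleType.1 h']

theorem exists_swap (h : 2 ≤ Fintype.card Ω) : ∃ τ : Perm Ω, τ.IsSwap := by
  obtain ⟨a, b, hab⟩ := Fintype.one_lt_card_iff.1 (by omega : 1 < Fintype.card Ω)
  exact ⟨swap a b, a, b, hab, rfl⟩

/-- preimages of all swaps have the triple transposition type if the subgroup is not a point stabilizer -/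
theorem triple_of_not (φ : Perm Ω ≃* Perm X) (hc : Fintype.card X = Fintype.card Ω)
    (h6 : Fintype.card Ω = 6) (x : X)
    (hn : ∀ y : Ω, (stabilizer (Perm X) x).comap (φ : Perm Ω →* Perm X) ≠ stabilizer (Perm Ω) y)
    {τ : Perm X} (hτ : τ.IsSwap) : (φ.symm τ).cycleType = Multiset.replicate 3 2 := by
  rcases preimage_swap φ hc hτ with h | h
  · exfalso
    obtain ⟨y, hy⟩ := comap_stab φ hc (by omega) (fun τ' hτ' => swap_conj h
      ((φ.symm : Perm X →* Perm Ω).map_isConj (swaps_conj hτ hτ'))) x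
    exact hn y hy
  · exact h.2

theorem conj_of_not (h6 : Fintype.card Ω = 6) (H H' : Subgroup (Perm Ω)) (hH : H.index = 6)
    (hH' : H'.index = 6) (hn : ∀ y : Ω, H ≠ stabilizer (Perm Ω) y)
    (hn' : ∀ y : Ω, H' ≠ stabilizer (Perm Ω) y) :
    ∃ g : Perm Ω, Subgroup.map (MulAut.conj g).toMonoidHom H = H' := by
  classical
  obtain ⟨φ, hφ⟩ := exists_iso (by omega) H (hH.trans h6.symm)
  obtain ⟨φ', hφ'⟩ := exists_iso (by omega) H' (hH'.trans h6.symm)
  letI : Fintype (Perm Ω ⧸ H) := Fintype.ofFinite _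
  letI : Fintype (Perm Ω ⧸ H') := Fintype.ofFinite _
  have hcX : Fintype.card (Perm Ω ⧸ H) = Fintype.card Ω := by
    rw [← Nat.card_eq_fintype_card, ← Subgroup.index_eq_card, hH, h6]
  have hcX' : Fintype.card (Perm Ω ⧸ H') = Fintype.card Ω := by
    rw [← Nat.card_eq_fintype_card, ← Subgroup.index_eq_card, hH', h6]
  have h3 : ∀ τ : Perm (Perm Ω ⧸ H), τ.IsSwap → (φ.symm τ).cycleType = Multiset.replicate 3 2 :=
    fun τ hτ => triple_of_not φ hcX h6 _ (fun y hy => hn y (hφ.trans hy)) hτ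
  have h3' : ∀ τ : Perm (Perm Ω ⧸ H'), τ.IsSwap → (φ'.symm τ).cycleType = Multiset.replicate 3 2 :=
    fun τ hτ => triple_of_not φ' hcX' h6 _ (fun y hy => hn' y (hφ'.trans hy)) hτ
  obtain ⟨τ0, hτ0⟩ := exists_swap (Ω := Perm Ω ⧸ H) (by omega)
  obtain ⟨y, hy⟩ := comap_stab (φ.symm.trans φ') (hcX'.trans hcX.symm) (by omega) (by
    intro τ hτ
    show (φ (φ'.symm τ)).IsSwap
    have h1 : IsConj (φ.symm τ0) (φ'.symm τ) := by
      rw [Equiv.Perm.isConj_iff_cycleType_eq, h3 τ0 hτ0, h3' τ hτ]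
    have h2 := (φ : Perm Ω →* Perm (Perm Ω ⧸ H)).map_isConj h1
    have h4 : (φ : Perm Ω →* Perm (Perm Ω ⧸ H)) (φ.symm τ0) = τ0 := φ.apply_symm_apply τ0
    rw [h4] at h2
    exact swap_conj hτ0 h2) ((1 : Perm Ω) : Perm Ω ⧸ H')
  obtain ⟨g, hg⟩ : ∃ g : Perm Ω, φ g = swap ((1 : Perm Ω) : Perm Ω ⧸ H) y :=
    ⟨φ.symm _, φ.apply_symm_apply _⟩
  refine ⟨g, ?_⟩
  refine (congrArg (Subgroup.map (MulAut.conj g).toMonoidHom) hφ).trans ?_
  refine Eq.trans ?_ hφ'.symm
  rw [conj_comap, hg, swap_apply_left, ← hy]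
  ext g
  simp only [Subgroup.mem_comap, mem_stabilizer_iff]
  show φ' (φ.symm (φ g)) • _ = _ ↔ _
  rw [φ.symm_apply_apply]
  rfl

/-- the number of Sylow 5-subgroups of S₅ -/
theorem card_syl : Nat.card (Sylow 5 (Perm (Fin 5))) = 6 := by
  haveI : Fact (Nat.Prime 5) := ⟨by norm_num⟩
  have P : Sylow 5 (Perm (Fin 5)) := default
  have hG : Nat.card (Perm (Fin 5)) = 120 := by
    rw [Nat.card_perm, Nat.card_eq_fintype_card, Fintype.card_fin]; rfl
  have hP : Nat.card P = 5 := by
    have h1 := P.card_eq_multiplicity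
    rw [hG] at h1
    have h2 : (120 : ℕ).factorization 5 = 1 := by
      rw [show (120 : ℕ) = 5 ^ 1 * 24 from rfl]
      rw [Nat.factorization_mul (by norm_num) (by norm_num)]
      rw [Finsupp.add_apply, Nat.Prime.factorization_pow (by norm_num : Nat.Prime 5),
        Nat.factorization_eq_zero_of_not_dvd (by norm_num : ¬ 5 ∣ 24)]
      simp
    rw [h2] at h1
    simpa using h1
  have hidx : (P : Subgroup (Perm (Fin 5))).index = 24 := by
    have := (P : Subgroup (Perm (Fin 5))).card_mul_index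
    rw [hG] at this
    have h2 : Nat.card (P : Subgroup (Perm (Fin 5))) = 5 := hP
    rw [h2] at this
    omega
  have h1 := P.card_dvd_index
  rw [hidx] at h1
  have h2 := card_sylow_modEq_one 5 (Perm (Fin 5))
  have hle : Nat.card (Sylow 5 (Perm (Fin 5))) ≤ 24 := Nat.le_of_dvd (by norm_num) h1
  obtain ⟨m, hm⟩ : ∃ m, Nat.card (Sylow 5 (Perm (Fin 5))) = m := ⟨_, rfl⟩
  rw [hm] at h1 h2 hle
  have hne : m ≠ 1 := by
    rintro rfl
    haveI : Subsingleton (Sylow 5 (Perm (Fin 5))) := (Nat.card_eq_one_iff_unique.1 hm).1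
    haveI : (P : Subgroup (Perm (Fin 5))).Normal := P.normal_of_subsingleton
    have hnt : Nontrivial (P : Subgroup (Perm (Fin 5))) := by
      rw [← Finite.one_lt_card_iff_nontrivial]
      have h2 : Nat.card (P : Subgroup (Perm (Fin 5))) = 5 := hP
      omega
    have hle := Equiv.Perm.alternatingGroup_le_of_normal (α := Fin 5) (by simp) hnt
    have h4 := Subgroup.card_dvd_of_le hle
    have h5 : Nat.card (P : Subgroup (Perm (Fin 5))) = 5 := hP
    rw [h5] at h4
    have h6 := (alternatingGroup (Fin 5)).card_mul_index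
    rw [alt_index (by simp), hG] at h6
    have h7 : Nat.card (alternatingGroup (Fin 5)) = 60 := by omega
    rw [h7] at h4
    omega
  have h3 : m % 5 = 1 := h2
  interval_cases m <;> omega

/-- the exotic subgroup of index 6 -/
theorem exists_exotic (h6 : Fintype.card Ω = 6) :
    ∃ H : Subgroup (Perm Ω), H.index = 6 ∧ ∀ y : Ω, H ≠ stabilizer (Perm Ω) y := by
  classical
  haveI : Fact (Nat.Prime 5) := ⟨by norm_num⟩
  have hG : Nat.card (Perm (Fin 5)) = 120 := by
    rw [Nat.card_perm, Nat.card_eq_fintype_card, Fintype.card_fin]; rfl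
  obtain ⟨S, hS⟩ : ∃ S, S = Sylow 5 (Perm (Fin 5)) := ⟨_, rfl⟩
  let φ := toPermHom (Perm (Fin 5)) (Sylow 5 (Perm (Fin 5)))
  haveI : Finite (Sylow 5 (Perm (Fin 5))) := inferInstance
  letI : Fintype (Sylow 5 (Perm (Fin 5))) := Fintype.ofFinite _
  have htr : IsPretransitive (Perm (Fin 5)) (Sylow 5 (Perm (Fin 5))) := inferInstance
  have hrange6 : 6 ≤ Nat.card φ.range := by
    have P : Sylow 5 (Perm (Fin 5)) := default
    have h1 : ∀ Q : Sylow 5 (Perm (Fin 5)), ∃ σ : φ.range, σ.1 P = Q := by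
      intro Q
      obtain ⟨g, hg⟩ := MulAction.exists_smul_eq (Perm (Fin 5)) P Q
      exact ⟨⟨φ g, ⟨g, rfl⟩⟩, hg⟩
    rw [← card_syl]
    exact Nat.card_le_card_of_surjective (fun σ : φ.range => σ.1 P) h1
  have hinj : Function.Injective φ := by
    rw [← MonoidHom.ker_eq_bot_iff]
    by_contra hcon
    have hnt : Nontrivial φ.ker := (Subgroup.nontrivial_iff_ne_bot _).2 hcon
    have hle := Equiv.Perm.alternatingGroup_le_of_normal (α := Fin 5) (by simp) hnt
    have h3 := Subgroup.index_dvd_of_le hle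
    rw [alt_index (by simp), Subgroup.index_ker] at h3
    have := Nat.le_of_dvd (by norm_num) h3
    omega
  have hcr : Nat.card φ.range = 120 := by
    rw [← hG]
    exact (Nat.card_congr (MonoidHom.ofInjective hinj).toEquiv).symm
  have hcS : Fintype.card (Sylow 5 (Perm (Fin 5))) = 6 := by
    rw [← Nat.card_eq_fintype_card, card_syl]
  have e : Sylow 5 (Perm (Fin 5)) ≃ Ω := Fintype.equivOfCardEq (hcS.trans h6.symm)
  let ψ : Perm (Sylow 5 (Perm (Fin 5))) ≃* Perm Ω := e.permCongrHom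
  have hcard : Nat.card (Perm Ω) = 720 := by
    rw [Nat.card_perm, Nat.card_eq_fintype_card, h6]; rfl
  refine ⟨φ.range.map (ψ : Perm (Sylow 5 (Perm (Fin 5))) →* Perm Ω), ?_, ?_⟩
  · have h1 : Nat.card (φ.range.map (ψ : Perm (Sylow 5 (Perm (Fin 5))) →* Perm Ω)) = 120 := by
      rw [← hcr]
      exact (Nat.card_congr (φ.range.equivMapOfInjective _ ψ.injective).toEquiv).symm
    have h2 := (φ.range.map (ψ : Perm (Sylow 5 (Perm (Fin 5))) →* Perm Ω)).card_mul_index
    rw [h1, hcard] at h2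
    omega
  · intro y hy
    obtain ⟨z, hz⟩ : ∃ z : Ω, z ≠ y := by
      haveI : Nontrivial Ω := Fintype.one_lt_card_iff_nontrivial.1 (by omega)
      exact exists_ne y
    obtain ⟨g, hg⟩ := MulAction.exists_smul_eq (Perm (Fin 5)) (e.symm y) (e.symm z)
    have h1 : ψ (φ g) ∈ stabilizer (Perm Ω) y := by
      rw [← hy]
      exact ⟨φ g, ⟨g, rfl⟩, rfl⟩
    rw [mem_stabilizer_iff] at h1
    apply hz
    have h2 : e (g • (e.symm y)) = y := h1
    rw [← h2, hg, e.apply_symm_apply]

theorem stab_iso (x : X) (n : ℕ) (hc : Fintype.card X = n + 1) :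
    Nonempty (stabilizer (Perm X) x ≃* Perm (Fin n)) := by
  classical
  have hr : (Equiv.Perm.ofSubtype : Perm {y : X // y ≠ x} →* Perm X).range = stabilizer (Perm X) x := by
    ext σ
    rw [mem_stabilizer_iff]
    constructor
    · rintro ⟨τ, rfl⟩
      exact Equiv.Perm.ofSubtype_apply_of_not_mem τ (by simp)
    · intro h
      have h' : σ x = x := h
      refine ⟨σ.subtypePerm (fun y => ?_), ?_⟩
      · rw [not_iff_not]
        constructor
        · intro hy
          apply σ.injective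
          rw [hy, h']
        · rintro rfl; exact h'
      · apply Equiv.Perm.ofSubtype_subtypePerm
        intro y hy hyx
        rw [hyx] at hy
        exact hy h'
  have e1 : Perm {y : X // y ≠ x} ≃* stabilizer (Perm X) x := by
    rw [← hr]
    exact MonoidHom.ofInjective Equiv.Perm.ofSubtype_injective
  have e2 : {y : X // y ≠ x} ≃ Fin n := Fintype.equivFinOfCardEq (by
    rw [Fintype.card_subtype_compl, hc]; simp)
  exact ⟨e1.symm.trans e2.permCongrHom⟩

theorem stab_injective (h3 : 3 ≤ Fintype.card Ω) {x y : Ω}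
    (h : stabilizer (Perm Ω) x = stabilizer (Perm Ω) y) : x = y := by
  by_contra hne
  obtain ⟨z, hz⟩ : ∃ z, z ∉ ({x, y} : Finset Ω) := by
    by_contra hcon
    push Not at hcon
    have h1 : (Finset.univ : Finset Ω) ⊆ {x, y} := fun z _ => hcon z
    have h2 := Finset.card_le_card h1
    rw [Finset.card_univ] at h2
    have := Finset.card_le_two (a := x) (b := y)
    omega
  simp only [Finset.mem_insert, Finset.mem_singleton, not_or] at hz
  have h1 : swap y z ∈ stabilizer (Perm Ω) x := by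
    rw [mem_stabilizer_iff]
    exact swap_apply_of_ne_of_ne hne (Ne.symm hz.1)
  rw [h, mem_stabilizer_iff] at h1
  have h2 : swap y z y = y := h1
  rw [swap_apply_left] at h2
  exact hz.2 h2

end Cfsg.Agent.H19.SymIdx
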