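import Mathlib
import Cfsg.Prelude.Def_Solvable
import Cfsg.Prelude.Def_OddOrderLocal
import Cfsg.Agent.H11_Cores
import Cfsg.Agent.H4_Util

set_option autoImplicit false

/-!
Finite groups in which all centralizers of elements are TI: basic facts.
-/

namespace Cfsg.Agent.H19.TIC

open Cfsg
open scoped commutatorElement

/-- all centralizers are TI -/
def TC (G : Type*) [Group G] : Prop := ∀ x g y : G, y ≠ 1 → Commute y x → Commute (g * y * g⁻¹) x →
  ∀ c : G, Commute c x → Commute (g * c * g⁻¹) x

theorem TC.of {G : Type*} [Group G] (hTI : ∀ x : G, Cfsg.IsTISubset (Subgroup.centralizer ({x} : Set G) : Set G)) : TC G := by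
  intro x g y hy hyx hgx c hc
  have h1 : g ∈ Subgroup.normalizer (Subgroup.centralizer ({x} : Set G) : Set G) := by
    by_contra hg
    exact hy (hTI x g hg y (Subgroup.mem_centralizer_singleton_iff.2 hyx) (Subgroup.mem_centralizer_singleton_iff.2 hgx))
  exact Subgroup.mem_centralizer_singleton_iff.1
    ((Subgroup.mem_set_normalizer_iff.1 h1 c).1 (Subgroup.mem_centralizer_singleton_iff.2 hc))

theorem TC.comap {G H : Type*} [Group G] [Group H] (h : TC G) (f : H →* G) (hf : Function.Injective f) : TC H := by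
  have key : ∀ a b : H, Commute (f a) (f b) ↔ Commute a b := by
    intro a b
    constructor
    · intro hab
      apply hf
      rw [map_mul, map_mul]
      exact hab
    · intro hab; exact hab.map f
  intro x g y hy hyx hgx c hc
  rw [← key] at hyx hgx hc ⊢
  rw [map_mul, map_mul, map_inv] at hgx ⊢
  exact h (f x) (f g) (f y) (fun h0 => hy (hf (h0.trans (map_one f).symm))) hyx hgx (f c) hc

theorem TC.sub {G : Type*} [Group G] (h : TC G) (H : Subgroup G) : TC H := h.comap H.subtype H.subtype_injective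

theorem exists_ab_normal {H : Type*} [Group H] [Nontrivial H] (hs : Group.IsSolvable H) :
    ∃ A : Subgroup H, A.Normal ∧ A ≠ ⊥ ∧ ∀ a ∈ A, ∀ b ∈ A, a * b = b * a := by
  classical
  obtain ⟨n, hn⟩ := hs.solvable
  have hex : ∃ n, derivedSeries H n = ⊥ := ⟨n, hn⟩
  have h1 := Nat.find_spec hex
  rcases hk : Nat.find hex with _ | k
  · rw [hk] at h1
    exfalso
    rw [derivedSeries_zero] at h1
    exact bot_ne_top h1.symm
  · rw [hk] at h1
    refine ⟨derivedSeries H k, inferInstance, Nat.find_min hex (by omega), ?_⟩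
    intro a ha b hb
    rw [derivedSeries_succ] at h1
    have h2 : ⁅a, b⁆ ∈ ⁅derivedSeries H k, derivedSeries H k⁆ := Subgroup.commutator_mem_commutator ha hb
    rw [h1, Subgroup.mem_bot, commutatorElement_eq_one_iff_mul_comm] at h2
    exact h2

universe u

theorem nilpotent_of_fit {G : Type u} [Group G] [Finite G]
    (h : ∀ x : G, ∃ N : Subgroup G, N.Normal ∧ Group.IsNilpotent N ∧ x ∈ N) : Group.IsNilpotent G := by
  have h1 : fittingSubgroup G = ⊤ := by
    rw [eq_top_iff]
    intro x _
    obtain ⟨N, hN, hn, hx⟩ := h x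
    haveI := hN
    exact H11.Cores.le_fittingSubgroup hn hx
  haveI : Group.IsNilpotent (⊤ : Subgroup G) := by rw [← h1]; infer_instance
  exact Group.nilpotent_of_surjective (⊤ : Subgroup G).subtype (fun x => ⟨⟨x, trivial⟩, rfl⟩)

theorem nilpotent_of_comm {H : Type*} [Group H] (hc : ∀ a b : H, a * b = b * a) : Group.IsNilpotent H := by
  letI : CommGroup H := { (inferInstance : Group H) with mul_comm := hc }
  exact CommGroup.isNilpotent

/-- groups with all centralizers normal are nilpotent -/
theorem nilpotent_of_comm_conj {G : Type u} [Group G] [Finite G] (h : ∀ x g : G, Commute (g * x * g⁻¹) x) : Group.IsNilpotent G := by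
  apply nilpotent_of_fit
  intro x
  refine ⟨Subgroup.normalClosure {x}, inferInstance, ?_, Subgroup.subset_normalClosure rfl⟩
  have h1 : ∀ a ∈ Group.conjugatesOfSet {x}, ∀ b ∈ Group.conjugatesOfSet {x}, a * b = b * a := by
    intro a ha b hb
    rw [Group.mem_conjugatesOfSet_iff] at ha hb
    obtain ⟨y, rfl, ha⟩ := ha
    obtain ⟨z, hz, hb⟩ := hb
    rw [Set.mem_singleton_iff] at hz
    subst hz
    obtain ⟨u, rfl⟩ := isConj_iff.1 ha
    obtain ⟨v, rfl⟩ := isConj_iff.1 hb
    have h2 := (h z (v⁻¹ * u)).eq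
    have e : u * z * u⁻¹ = v * (v⁻¹ * u * z * (v⁻¹ * u)⁻¹) * v⁻¹ := by group
    rw [e]
    calc v * (v⁻¹ * u * z * (v⁻¹ * u)⁻¹) * v⁻¹ * (v * z * v⁻¹) = v * ((v⁻¹ * u * z * (v⁻¹ * u)⁻¹) * z) * v⁻¹ := by group
      _ = v * (z * (v⁻¹ * u * z * (v⁻¹ * u)⁻¹)) * v⁻¹ := by rw [h2]
      _ = _ := by group
  have h2 : IsMulCommutative (Subgroup.closure (Group.conjugatesOfSet {x})) := Subgroup.isMulCommutative_closure h1
  change Group.IsNilpotent (Subgroup.closure (Group.conjugatesOfSet {x}))
  exact nilpotent_of_comm (fun a b => h2.is_comm.comm a b)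

theorem TC.nilpotent_of_center {G : Type u} [Group G] [Finite G] (h : TC G) {z : G} (hz : z ≠ 1) (hzc : ∀ g : G, Commute z g) :
    Group.IsNilpotent G := by
  apply nilpotent_of_comm_conj
  intro x g
  apply h x g z hz (hzc x) ?_ x (Commute.refl x)
  have : g * z * g⁻¹ = z := by rw [← (hzc g).eq]; group
  rw [this]; exact hzc x

theorem TC.cn {G : Type u} [Group G] [Finite G] (h : TC G) {x : G} (hx : x ≠ 1) :
    Group.IsNilpotent (Subgroup.centralizer ({x} : Set G)) := by
  refine (h.sub _).nilpotent_of_center (z := ⟨x, Subgroup.mem_centralizer_singleton_iff.2 rfl⟩)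
    (fun h0 => hx (congrArg Subtype.val h0)) (fun g => Subtype.ext ?_)
  exact (Subgroup.mem_centralizer_singleton_iff.1 g.2).symm

end Cfsg.Agent.H19.TIC
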