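import Mathlib
import Cfsg.Agent.H19_A6a

/-! Sylow 3-subgroup of order nine with Klein four automizer: the arithmetic of three columns. -/

set_option autoImplicit false
namespace Cfsg.Agent.H19.V9a
open Cfsg.Agent.H19.A6a

theorem pair_eq {x y z : ℤ} (hx : x ≠ 0) (hy : y ≠ 0) (hz : z ≠ 0) (hs : x + y + z = 0)
    (h : (4 : ℚ) / x + 1 / y + 1 / z = 0) : y = z := by
  have hx' : (x : ℚ) ≠ 0 := by exact_mod_cast hx
  have hy' : (y : ℚ) ≠ 0 := by exact_mod_cast hy
  have hz' : (z : ℚ) ≠ 0 := by exact_mod_cast hz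
  field_simp at h
  have h1 : 4 * y * z + x * z + x * y = 0 := by
    have : ((4 * y * z + x * z + x * y : ℤ) : ℚ) = 0 := by push_cast; linarith
    exact_mod_cast this
  have h2 : x = -(y + z) := by linarith
  subst h2
  have h3 : (y - z) ^ 2 = 0 := by nlinarith
  have := pow_eq_zero_iff (two_ne_zero) |>.1 h3
  linarith

theorem no_pair {x y z : ℤ} (hx : x ≠ 0) (hy : y ≠ 0) (hz : z ≠ 0) (hs : x + y + z = 0) {q : ℚ} (hq : q ≠ 0)
    (h : q / x + q / y = 0) : False := by
  have hx' : (x : ℚ) ≠ 0 := by exact_mod_cast hx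
  have hy' : (y : ℚ) ≠ 0 := by exact_mod_cast hy
  have h0 : q * ((y : ℚ) + x) = 0 := by
    have : q * ((y : ℚ) + x) = (q / x + q / y) * (x * y) := by field_simp
    rw [this, h, zero_mul]
  have h1 : y + x = 0 := by
    have : ((y + x : ℤ) : ℚ) = 0 := by push_cast; exact (mul_eq_zero.1 h0).resolve_left hq
    exact_mod_cast this
  omega

/-- one triple -/
theorem triple {p q r x y z : ℤ} (hx : x ≠ 0) (hy : y ≠ 0) (hz : z ≠ 0) (hs : x + y + z = 0)
    (hp : p + q + r = -3) (h1 : p = -1 ∨ p = -2) (h2 : p ^ 2 + q ^ 2 + r ^ 2 ≤ 7)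
    (h : ((p : ℚ) + 3) ^ 2 / x + (q : ℚ) ^ 2 / y + (r : ℚ) ^ 2 / z = 0) :
    p = -1 ∧ q = -1 ∧ r = -1 ∧ y = z := by
  have hq1 : -2 ≤ q := by nlinarith [sq_nonneg p, sq_nonneg r]
  have hq2 : q ≤ 2 := by nlinarith [sq_nonneg p, sq_nonneg r]
  have hr : r = -3 - p - q := by linarith
  subst hr
  rcases h1 with rfl | rfl
  · interval_cases q
    · -- q = -2, r = 0
      exfalso
      refine no_pair hx hy hz hs (q := 4) (by norm_num) ?_
      rw [← h]; push_cast; ring
    · refine ⟨rfl, rfl, by norm_num, pair_eq hx hy hz hs ?_⟩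
      rw [← h]; push_cast; ring
    · exfalso
      refine no_pair hx hz hy (by linarith) (q := 4) (by norm_num) ?_
      rw [← h]; push_cast; ring
    · norm_num at h2
    · norm_num at h2
  · exfalso
    interval_cases q
    · norm_num at h2
    · refine no_pair hx hy hz hs (q := 1) (by norm_num) ?_
      rw [← h]; push_cast; ring
    · refine no_pair hx hz hy (by linarith) (q := 1) (by norm_num) ?_
      rw [← h]; push_cast; ring
    · norm_num at h2
    · norm_num at h2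

theorem inv_ge {E : ℤ} (h : (9 : ℤ) ∣ E - 1) : -(1 / 8 : ℚ) ≤ 1 / E ∧ (1 : ℚ) / E ≤ 1 ∧ (0 < E → (0 : ℚ) < 1 / E) ∧
    ((1 : ℚ) / E = 1 → E = 1) := by
  rcases lt_trichotomy E 0 with h0 | h0 | h0
  · have h8 : E ≤ -8 := by omega
    have hE : (E : ℚ) ≤ -8 := by exact_mod_cast h8
    have hE0 : (E : ℚ) < 0 := by linarith
    have hneg : (1 : ℚ) / E < 0 := div_neg_of_pos_of_neg one_pos hE0
    refine ⟨?_, by linarith, fun h => by omega, fun h => by linarith⟩
    rw [← neg_div_neg_eq, ← neg_div_neg_eq, neg_neg]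
    have : (1 : ℚ) / (-E) ≤ 1 / 8 := one_div_le_one_div_of_le (by norm_num) (by linarith)
    have e1 : (-1 : ℚ) / (-E) = 1 / E := by rw [neg_div_neg_eq]
    have e2 : (1 : ℚ) / (-E) = - (1 / E) := by rw [div_neg]
    linarith
  · omega
  · have hE : (1 : ℚ) ≤ E := by exact_mod_cast h0
    have hpos : (0 : ℚ) < 1 / E := by positivity
    refine ⟨by linarith, ?_, fun _ => hpos, fun h => ?_⟩
    · rw [div_le_one (by linarith)]; exact hE
    · rw [div_eq_one_iff_eq (by linarith)] at h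
      exact_mod_cast h.symm

theorem final {E1 E2 E3 δ : ℤ} (h1 : (9 : ℤ) ∣ E1 - 1) (h2 : (9 : ℤ) ∣ E2 - 1) (h3 : (9 : ℤ) ∣ E3 - 1)
    (hδ : (9 : ℤ) ∣ δ - 2) (hs : 1 + E1 + E2 + E3 = 2 * δ)
    (hi : 1 + (1 : ℚ) / E1 + 1 / E2 + 1 / E3 = 8 / δ) : δ = 2 ∧ (1 : ℚ) / E1 + 1 / E2 + 1 / E3 = 3 := by
  obtain ⟨a1, b1, c1, d1⟩ := inv_ge h1
  obtain ⟨a2, b2, c2, d2⟩ := inv_ge h2
  obtain ⟨a3, b3, c3, d3⟩ := inv_ge h3
  have hpos : (0 : ℚ) < 8 / δ := by rw [← hi]; linarith
  have hδ0 : 0 < δ := by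
    by_contra h
    have : (δ : ℚ) ≤ 0 := by exact_mod_cast not_lt.1 h
    have : (8 : ℚ) / δ ≤ 0 := div_nonpos_of_nonneg_of_nonpos (by norm_num) this
    linarith
  have hδ0' : (0 : ℚ) < δ := by exact_mod_cast hδ0
  have h58 : (5 / 8 : ℚ) ≤ 8 / δ := by rw [← hi]; linarith
  have hle : (δ : ℚ) ≤ 64 / 5 := by
    rw [le_div_iff₀ hδ0'] at h58
    linarith
  have hle' : δ ≤ 12 := by
    by_contra h
    have : (13 : ℚ) ≤ δ := by exact_mod_cast not_le.1 h
    linarith
  have h211 : δ = 2 ∨ δ = 11 := by omega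
  rcases h211 with rfl | rfl
  · refine ⟨rfl, ?_⟩
    have : (8 : ℚ) / ((2 : ℤ) : ℚ) = 4 := by norm_num
    rw [this] at hi
    linarith
  · exfalso
    have : (8 : ℚ) / ((11 : ℤ) : ℚ) = 8 / 11 := by norm_num
    rw [this] at hi
    have hE : 0 < E1 ∨ 0 < E2 ∨ 0 < E3 := by omega
    rcases hE with h | h | h
    · have := c1 h; linarith
    · have := c2 h; linarith
    · have := c3 h; linarith

theorem div_eq' {e x : ℤ} (he : e ^ 2 = 1) (hx : x ≠ 0) (y : ℚ) : y / (x : ℚ) = (e : ℚ) * y / ((e * x : ℤ) : ℚ) := by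
  have he' : (e : ℚ) ≠ 0 := by
    intro h
    have : e = 0 := by exact_mod_cast h
    rw [this] at he; norm_num at he
  have hx' : (x : ℚ) ≠ 0 := by exact_mod_cast hx
  push_cast
  field_simp

theorem tm {e x : ℤ} (he : e ^ 2 = 1) (hx : x ≠ 0) {al be ga A B C D : ℤ} (hA : e * al = A) (hB : e * be = B)
    (hC : e * ga = C) (hD : e * x = D) : (al : ℚ) * be * ga / (x : ℚ) = (A : ℚ) * B * C / D := by
  subst hA hB hC hD
  have hx' : (x : ℚ) ≠ 0 := by exact_mod_cast hx
  rcases sq_one he with h | h <;> subst h <;> push_cast <;> field_simp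

theorem three {ui uj uk vi vj vk ai aj ak bi bj bk ci cj ck di dj dk : ℤ} (hk : uk ^ 2 = 1) (hdk : dk ≠ 0)
    (h1 : vi = ui) (h2 : vj = uj) (h3 : vk = -uk) (e1 : ui * ci + uj * cj + uk * ck = -3)
    (e2 : vi * ci + vj * cj + vk * ck = -3) (ai' : ai = ci + 3 * ui) (aj' : aj = cj + 3 * uj) (ak' : ak = ck + 3 * uk)
    (bi' : bi = ci + 3 * vi) (bj' : bj = cj + 3 * vj) (bk' : bk = ck + 3 * vk)
    (F5 : (ui : ℚ) * (bi : ℚ) ^ 2 / di + (uj : ℚ) * (bj : ℚ) ^ 2 / dj + (uk : ℚ) * (bk : ℚ) ^ 2 / dk = 0)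
    (F6 : (vi : ℚ) * (ai : ℚ) ^ 2 / di + (vj : ℚ) * (aj : ℚ) ^ 2 / dj + (vk : ℚ) * (ak : ℚ) ^ 2 / dk = 0) : False := by
  subst h1 h2 h3
  have hck : ck = 0 := by
    rcases sq_one hk with h | h <;> subst h <;> linarith
  subst hck
  have hab : ai = bi := by rw [ai', bi']
  have hab' : aj = bj := by rw [aj', bj']
  subst hab hab'
  subst ak' bk'
  have hdk' : (dk : ℚ) ≠ 0 := by exact_mod_cast hdk
  have h5 : (uk : ℚ) * ((3 * uk : ℚ)) ^ 2 / dk * 2 = 0 := by
    push_cast at F5 F6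
    have : (uk : ℚ) * ((3 * uk : ℚ)) ^ 2 / dk * 2 = (uk : ℚ) * (0 + 3 * -(uk : ℚ)) ^ 2 / dk -
      (-(uk : ℚ)) * (0 + 3 * (uk : ℚ)) ^ 2 / dk := by ring
    rw [this]; linarith
  have huk : (uk : ℚ) ≠ 0 := by
    intro h
    have : uk = 0 := by exact_mod_cast h
    rw [this] at hk; norm_num at hk
  have : (uk : ℚ) * ((3 * uk : ℚ)) ^ 2 / dk * 2 ≠ 0 := by positivity
  exact this h5

theorem sq_aux {p q r l m : ℤ} (h1 : p + q + r = -3) (h2 : p + l + m = -3)
    (h : p ^ 2 + q ^ 2 + r ^ 2 + l ^ 2 + m ^ 2 ≤ 8) : p = -1 ∨ p = -2 := by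
  have g1 : 2 * (q ^ 2 + r ^ 2) ≥ (3 + p) ^ 2 := by
    have : 3 + p = -(q + r) := by linarith
    rw [this]; nlinarith [sq_nonneg (q - r)]
  have g2 : 2 * (l ^ 2 + m ^ 2) ≥ (3 + p) ^ 2 := by
    have : 3 + p = -(l + m) := by linarith
    rw [this]; nlinarith [sq_nonneg (l - m)]
  have g3 : 2 * p ^ 2 + 6 * p + 1 ≤ 0 := by nlinarith
  have g4 : -3 < p := by nlinarith
  have g5 : p < 0 := by nlinarith
  omega

theorem sq_aux2 {p l m : ℤ} (h2 : p + l + m = -3) (hp : p = -1 ∨ p = -2) : 1 ≤ l ^ 2 + m ^ 2 := by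
  rcases eq_or_ne l 0 with h | h
  · have : m ≠ 0 := by rintro rfl; omega
    have := sq_pos_of_ne_zero this
    nlinarith [sq_nonneg l]
  · have := sq_pos_of_ne_zero h
    nlinarith [sq_nonneg m]

set_option maxHeartbeats 4000000 in
/-- The structure of three integral columns. -/
theorem arith {I : Type*} [Fintype I] [DecidableEq I] (i0 : I) (a b c d : I → ℤ) (hd : ∀ i, 1 ≤ d i)
    (hc0 : c i0 = 1) (ha0 : a i0 = 1) (hb0 : b i0 = 1) (hd0 : d i0 = 1)
    (haa : ∑ i, a i ^ 2 = 18) (hbb : ∑ i, b i ^ 2 = 18) (hcc : ∑ i, c i ^ 2 = 9)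
    (hab : ∑ i, a i * b i = 0) (hac : ∑ i, a i * c i = 0) (hbc : ∑ i, b i * c i = 0)
    (had : ∑ i, a i * d i = 0) (hbd : ∑ i, b i * d i = 0) (hcd : ∑ i, c i * d i = 0)
    (h3a : ∀ i, (3 : ℤ) ∣ a i - c i) (h3b : ∀ i, (3 : ℤ) ∣ b i - c i)
    (h9 : ∀ i, (9 : ℤ) ∣ d i - a i - b i + c i)
    (F1 : ∑ i, (a i : ℚ) ^ 2 * (b i : ℚ) / (d i : ℚ) = 0)
    (F2 : ∑ i, (b i : ℚ) ^ 2 * (a i : ℚ) / (d i : ℚ) = 0)
    (F3 : ∑ i, (a i : ℚ) ^ 2 * (c i : ℚ) / (d i : ℚ) = 0)
    (F4 : ∑ i, (b i : ℚ) ^ 2 * (c i : ℚ) / (d i : ℚ) = 0) :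
    ∑ i, (a i : ℚ) * (b i : ℚ) * (c i : ℚ) / (d i : ℚ) = 9 := by
  choose u hu using h3a
  choose v hv using h3b
  have huc : ∑ i, u i * c i = -3 := by
    have h1 : ∑ i, (3 * (u i * c i)) = -9 := by
      have : ∀ i, 3 * (u i * c i) = a i * c i - c i ^ 2 := fun i => by
        have := hu i
        linear_combination (-(c i)) * this
      rw [Finset.sum_congr rfl fun i _ => this i, Finset.sum_sub_distrib, hac, hcc]; norm_num
    rw [← Finset.mul_sum] at h1
    linarith
  have hvc : ∑ i, v i * c i = -3 := by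
    have h1 : ∑ i, (3 * (v i * c i)) = -9 := by
      have : ∀ i, 3 * (v i * c i) = b i * c i - c i ^ 2 := fun i => by
        have := hv i
        linear_combination (-(c i)) * this
      rw [Finset.sum_congr rfl fun i _ => this i, Finset.sum_sub_distrib, hbc, hcc]; norm_num
    rw [← Finset.mul_sum] at h1
    linarith
  have hud : ∑ i, u i * d i = 0 := by
    have h1 : ∑ i, (3 * (u i * d i)) = 0 := by
      have : ∀ i, 3 * (u i * d i) = a i * d i - c i * d i := fun i => by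
        have := hu i
        linear_combination (-(d i)) * this
      rw [Finset.sum_congr rfl fun i _ => this i, Finset.sum_sub_distrib, had, hcd]; norm_num
    rw [← Finset.mul_sum] at h1
    linarith
  have hvd : ∑ i, v i * d i = 0 := by
    have h1 : ∑ i, (3 * (v i * d i)) = 0 := by
      have : ∀ i, 3 * (v i * d i) = b i * d i - c i * d i := fun i => by
        have := hv i
        linear_combination (-(d i)) * this
      rw [Finset.sum_congr rfl fun i _ => this i, Finset.sum_sub_distrib, hbd, hcd]; norm_num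
    rw [← Finset.mul_sum] at h1
    linarith
  have huu : ∑ i, u i ^ 2 = 3 := by
    have h1 : ∑ i, (9 * u i ^ 2) = 27 := by
      have : ∀ i, 9 * u i ^ 2 = a i ^ 2 - 2 * (a i * c i) + c i ^ 2 := fun i => by
        have := hu i
        have e : a i = c i + 3 * u i := by linarith
        rw [e]; ring
      rw [Finset.sum_congr rfl fun i _ => this i, Finset.sum_add_distrib, Finset.sum_sub_distrib, ← Finset.mul_sum,
        haa, hac, hcc]; norm_num
    rw [← Finset.mul_sum] at h1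
    linarith
  have hvv : ∑ i, v i ^ 2 = 3 := by
    have h1 : ∑ i, (9 * v i ^ 2) = 27 := by
      have : ∀ i, 9 * v i ^ 2 = b i ^ 2 - 2 * (b i * c i) + c i ^ 2 := fun i => by
        have := hv i
        have e : b i = c i + 3 * v i := by linarith
        rw [e]; ring
      rw [Finset.sum_congr rfl fun i _ => this i, Finset.sum_add_distrib, Finset.sum_sub_distrib, ← Finset.mul_sum,
        hbb, hbc, hcc]; norm_num
    rw [← Finset.mul_sum] at h1
    linarith
  have huv : ∑ i, u i * v i = 1 := by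
    have h1 : ∑ i, (9 * (u i * v i)) = 9 := by
      have : ∀ i, 9 * (u i * v i) = a i * b i - a i * c i - b i * c i + c i ^ 2 := fun i => by
        have h1 := hu i
        have h2 := hv i
        have e : a i = c i + 3 * u i := by linarith
        have e' : b i = c i + 3 * v i := by linarith
        rw [e, e']; ring
      rw [Finset.sum_congr rfl fun i _ => this i, Finset.sum_add_distrib, Finset.sum_sub_distrib,
        Finset.sum_sub_distrib, hab, hac, hbc, hcc]; norm_num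
    rw [← Finset.mul_sum] at h1
    linarith
  have ea : ∀ i, a i = c i + 3 * u i := fun i => by have := hu i; linarith
  have eb : ∀ i, b i = c i + 3 * v i := fun i => by have := hv i; linarith
  have F5 : ∑ i, (u i : ℚ) * (b i : ℚ) ^ 2 / (d i : ℚ) = 0 := by
    have h1 : ∑ i, (3 * ((u i : ℚ) * (b i : ℚ) ^ 2 / (d i : ℚ))) = 0 := by
      have : ∀ i, 3 * ((u i : ℚ) * (b i : ℚ) ^ 2 / (d i : ℚ)) =
          (b i : ℚ) ^ 2 * (a i : ℚ) / (d i : ℚ) - (b i : ℚ) ^ 2 * (c i : ℚ) / (d i : ℚ) := fun i => by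
        rw [ea i]; push_cast; ring
      rw [Finset.sum_congr rfl fun i _ => this i, Finset.sum_sub_distrib, F2, F4]; norm_num
    rw [← Finset.mul_sum] at h1
    linarith
  have F6 : ∑ i, (v i : ℚ) * (a i : ℚ) ^ 2 / (d i : ℚ) = 0 := by
    have h1 : ∑ i, (3 * ((v i : ℚ) * (a i : ℚ) ^ 2 / (d i : ℚ))) = 0 := by
      have : ∀ i, 3 * ((v i : ℚ) * (a i : ℚ) ^ 2 / (d i : ℚ)) =
          (a i : ℚ) ^ 2 * (b i : ℚ) / (d i : ℚ) - (a i : ℚ) ^ 2 * (c i : ℚ) / (d i : ℚ) := fun i => by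
        rw [eb i]; push_cast; ring
      rw [Finset.sum_congr rfl fun i _ => this i, Finset.sum_sub_distrib, F1, F3]; norm_num
    rw [← Finset.mul_sum] at h1
    linarith
  have hu0 : u i0 = 0 := by have := ea i0; rw [ha0, hc0] at this; linarith
  have hv0 : v i0 = 0 := by have := eb i0; rw [hb0, hc0] at this; linarith
  -- supports
  obtain ⟨U, hU⟩ : ∃ U, U = Finset.univ.filter (fun i => u i ≠ 0) := ⟨_, rfl⟩
  obtain ⟨V, hV⟩ : ∃ V, V = Finset.univ.filter (fun i => v i ≠ 0) := ⟨_, rfl⟩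
  have mU : ∀ i, i ∈ U ↔ u i ≠ 0 := fun i => by rw [hU]; simp
  have mV : ∀ i, i ∈ V ↔ v i ≠ 0 := fun i => by rw [hV]; simp
  have sU : ∀ {M : Type} [AddCommMonoid M] (f : I → M), (∀ i, u i = 0 → f i = 0) → ∑ i, f i = ∑ i ∈ U, f i := by
    intro M _ f hf
    symm
    apply Finset.sum_subset (Finset.subset_univ _)
    intro i _ hi
    exact hf i (not_not.1 (fun h => hi ((mU i).2 h)))
  have sV : ∀ {M : Type} [AddCommMonoid M] (f : I → M), (∀ i, v i = 0 → f i = 0) → ∑ i, f i = ∑ i ∈ V, f i := by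
    intro M _ f hf
    symm
    apply Finset.sum_subset (Finset.subset_univ _)
    intro i _ hi
    exact hf i (not_not.1 (fun h => hi ((mV i).2 h)))
  rw [sU _ (fun i h => by rw [h]; simp)] at huc hud huu F5
  rw [sV _ (fun i h => by rw [h]; simp)] at hvc hvd hvv F6
  obtain ⟨hU3, hU1⟩ := card_two U u (fun i hi => (mU i).1 hi) 3 (by norm_num) (by rw [huu]; rfl)
  obtain ⟨hV3, hV1⟩ := card_two V v (fun i hi => (mV i).1 hi) 3 (by norm_num) (by rw [hvv]; rfl)
  have hdne : ∀ i, d i ≠ 0 := fun i => by have := hd i; omega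
  obtain ⟨W, hW⟩ : ∃ W, W = U ∩ V := ⟨_, rfl⟩
  have huvW : ∑ i ∈ W, u i * v i = 1 := by
    rw [← huv]
    apply Finset.sum_subset (Finset.subset_univ _)
    intro i _ hi
    by_contra h
    apply hi
    rw [hW, Finset.mem_inter, mU, mV]
    exact ⟨left_ne_zero_of_mul h, right_ne_zero_of_mul h⟩
  have hWle : W.card ≤ 3 := by rw [hW, ← hU3]; exact Finset.card_le_card Finset.inter_subset_left
  have hWu : ∀ i ∈ W, (u i * v i) = 1 ∨ (u i * v i) = -1 := by
    intro i hi
    rw [hW, Finset.mem_inter] at hi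
    apply sq_one
    rw [mul_pow, hU1 i hi.1, hV1 i hi.2, one_mul]
  have hW13 : W.card = 1 ∨ W.card = 3 := by
    have h0 : W.card ≠ 0 := by
      intro h
      rw [Finset.card_eq_zero.1 h, Finset.sum_empty] at huvW
      omega
    have h2 : W.card ≠ 2 := by
      intro h
      obtain ⟨x, y, hxy, hWe⟩ := Finset.card_eq_two.1 h
      rw [hWe, Finset.sum_pair hxy] at huvW
      have hx := hWu x (by rw [hWe]; simp)
      have hy := hWu y (by rw [hWe]; simp)
      omega
    omega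
  rcases hW13 with hW1 | hW3
  · obtain ⟨i, hi⟩ := Finset.card_eq_one.1 hW1
    have hiW : i ∈ W := by rw [hi]; simp
    have hiU : i ∈ U := by rw [hW, Finset.mem_inter] at hiW; exact hiW.1
    have hiV : i ∈ V := by rw [hW, Finset.mem_inter] at hiW; exact hiW.2
    rw [hi, Finset.sum_singleton] at huvW
    have hvi : v i = u i := by
      rcases sq_one (hU1 i hiU) with h | h <;> rw [h] at huvW ⊢ <;> linarith
    obtain ⟨j, k, hjk, hUe⟩ := Finset.card_eq_two.1 (show (U.erase i).card = 2 by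
      rw [Finset.card_erase_of_mem hiU, hU3])
    obtain ⟨l, m, hlm, hVe⟩ := Finset.card_eq_two.1 (show (V.erase i).card = 2 by
      rw [Finset.card_erase_of_mem hiV, hV3])
    have hjU' : j ∈ U.erase i := by rw [hUe]; simp
    have hkU' : k ∈ U.erase i := by rw [hUe]; simp
    have hlV' : l ∈ V.erase i := by rw [hVe]; simp
    have hmV' : m ∈ V.erase i := by rw [hVe]; simp
    obtain ⟨hji, hjU⟩ := Finset.mem_erase.1 hjU'
    obtain ⟨hki, hkU⟩ := Finset.mem_erase.1 hkU'
    obtain ⟨hli, hlV⟩ := Finset.mem_erase.1 hlV'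
    obtain ⟨hmi, hmV⟩ := Finset.mem_erase.1 hmV'
    have notV : ∀ x, x ≠ i → x ∈ U → v x = 0 := by
      intro x hx hxU
      by_contra h
      have : x ∈ W := by rw [hW, Finset.mem_inter]; exact ⟨hxU, (mV x).2 h⟩
      rw [hi, Finset.mem_singleton] at this
      exact hx this
    have notU : ∀ x, x ≠ i → x ∈ V → u x = 0 := by
      intro x hx hxV
      by_contra h
      have : x ∈ W := by rw [hW, Finset.mem_inter]; exact ⟨(mU x).2 h, hxV⟩
      rw [hi, Finset.mem_singleton] at this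
      exact hx this
    have vj := notV j hji hjU
    have vk := notV k hki hkU
    have ul := notU l hli hlV
    have um := notU m hmi hmV
    have hjl : j ≠ l := by rintro rfl; exact (mV j).1 hlV vj
    have hjm : j ≠ m := by rintro rfl; exact (mV j).1 hmV vj
    have hkl : k ≠ l := by rintro rfl; exact (mV k).1 hlV vk
    have hkm : k ≠ m := by rintro rfl; exact (mV k).1 hmV vk
    have h0i : i0 ≠ i := by rintro rfl; exact (mU _).1 hiU hu0
    have h0j : i0 ≠ j := by rintro rfl; exact (mU _).1 hjU hu0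
    have h0k : i0 ≠ k := by rintro rfl; exact (mU _).1 hkU hu0
    have h0l : i0 ≠ l := by rintro rfl; exact (mV _).1 hlV hv0
    have h0m : i0 ≠ m := by rintro rfl; exact (mV _).1 hmV hv0
    obtain ⟨R, hR⟩ : ∃ R, R = Finset.univ \ ({i0, i, j, k, l, m} : Finset I) := ⟨_, rfl⟩
    have splitQ : ∀ f : I → ℚ, ∑ x, f x = f i0 + f i + f j + f k + f l + f m + ∑ x ∈ R, f x := by
      intro f
      rw [← Finset.sum_sdiff (Finset.subset_univ ({i0, i, j, k, l, m} : Finset I)), ← hR,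
        Finset.sum_insert (by simp [h0i, h0j, h0k, h0l, h0m]),
        Finset.sum_insert (by simp [hji.symm, hki.symm, hli.symm, hmi.symm]),
        Finset.sum_insert (by simp [hjk, hjl, hjm]),
        Finset.sum_insert (by simp [hkl, hkm]), Finset.sum_pair hlm]
      ring
    have splitZ : ∀ f : I → ℤ, ∑ x, f x = f i0 + f i + f j + f k + f l + f m + ∑ x ∈ R, f x := by
      intro f
      have := splitQ (fun x => (f x : ℚ))
      exact_mod_cast this
    have hRm : ∀ x ∈ R, u x = 0 ∧ v x = 0 := by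
      intro x hx
      rw [hR, Finset.mem_sdiff] at hx
      have hx2 := hx.2
      simp only [Finset.mem_insert, Finset.mem_singleton, not_or] at hx2
      constructor
      · by_contra h
        have : x ∈ U.erase i := Finset.mem_erase.2 ⟨hx2.2.1, (mU x).2 h⟩
        rw [hUe] at this
        simp only [Finset.mem_insert, Finset.mem_singleton] at this
        rcases this with h | h
        · exact hx2.2.2.1 h
        · exact hx2.2.2.2.1 h
      · by_contra h
        have : x ∈ V.erase i := Finset.mem_erase.2 ⟨hx2.2.1, (mV x).2 h⟩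
        rw [hVe] at this
        simp only [Finset.mem_insert, Finset.mem_singleton] at this
        rcases this with h | h
        · exact hx2.2.2.2.2.1 h
        · exact hx2.2.2.2.2.2 h
    have eU : ∀ {M : Type} [AddCommMonoid M] (f : I → M), ∑ x ∈ U, f x = f i + (f j + f k) := by
      intro M _ f
      rw [← Finset.add_sum_erase U f hiU, hUe, Finset.sum_pair hjk]
    have eV : ∀ {M : Type} [AddCommMonoid M] (f : I → M), ∑ x ∈ V, f x = f i + (f l + f m) := by
      intro M _ f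
      rw [← Finset.add_sum_erase V f hiV, hVe, Finset.sum_pair hlm]
    rw [eU] at huc hud F5
    rw [eV] at hvc hvd F6
    rw [hvi] at hvc hvd F6
    obtain ⟨pi, hpi⟩ : ∃ z, z = u i * c i := ⟨_, rfl⟩
    obtain ⟨pj, hpj⟩ : ∃ z, z = u j * c j := ⟨_, rfl⟩
    obtain ⟨pk, hpk⟩ : ∃ z, z = u k * c k := ⟨_, rfl⟩
    obtain ⟨pl, hpl⟩ : ∃ z, z = v l * c l := ⟨_, rfl⟩
    obtain ⟨pm, hpm⟩ : ∃ z, z = v m * c m := ⟨_, rfl⟩
    have si := hU1 i hiU
    have sj := hU1 j hjU
    have sk := hU1 k hkU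
    have sl := hV1 l hlV
    have sm := hV1 m hmV
    have hcc' := hcc
    rw [splitZ] at hcc'
    have qi : c i ^ 2 = pi ^ 2 := by rw [hpi, mul_pow, si, one_mul]
    have qj : c j ^ 2 = pj ^ 2 := by rw [hpj, mul_pow, sj, one_mul]
    have qk : c k ^ 2 = pk ^ 2 := by rw [hpk, mul_pow, sk, one_mul]
    have ql : c l ^ 2 = pl ^ 2 := by rw [hpl, mul_pow, sl, one_mul]
    have qm : c m ^ 2 = pm ^ 2 := by rw [hpm, mul_pow, sm, one_mul]
    rw [hc0, qi, qj, qk, ql, qm] at hcc'
    rw [← hpi, ← hpj, ← hpk] at huc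
    rw [← hpi, ← hpl, ← hpm] at hvc
    have huc' : pi + pj + pk = -3 := by linarith
    have hvc' : pi + pl + pm = -3 := by linarith
    have hRnn : 0 ≤ ∑ x ∈ R, c x ^ 2 := Finset.sum_nonneg (fun _ _ => sq_nonneg _)
    have hp12 : pi = -1 ∨ pi = -2 := sq_aux huc' hvc' (by linarith)
    have hsq1 : 1 ≤ pl ^ 2 + pm ^ 2 := sq_aux2 hvc' hp12
    have hsq2 : 1 ≤ pj ^ 2 + pk ^ 2 := sq_aux2 huc' hp12
    have une : ∀ {e x : ℤ}, e ^ 2 = 1 → x ≠ 0 → e * x ≠ 0 := by
      intro e x he hx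
      exact mul_ne_zero (by rintro rfl; norm_num at he) hx
    -- values
    have ubi : u i * b i = pi + 3 := by rw [eb i, hvi, hpi]; linear_combination 3 * si
    have uai : u i * a i = pi + 3 := by rw [ea i, hpi]; linear_combination 3 * si
    have ubj : u j * b j = pj := by rw [eb j, vj, hpj]; ring
    have uaj : u j * a j = pj + 3 := by rw [ea j, hpj]; linear_combination 3 * sj
    have ubk : u k * b k = pk := by rw [eb k, vk, hpk]; ring
    have uak : u k * a k = pk + 3 := by rw [ea k, hpk]; linear_combination 3 * sk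
    have val : v l * a l = pl := by rw [ea l, ul, hpl]; ring
    have vbl : v l * b l = pl + 3 := by rw [eb l, hpl]; linear_combination 3 * sl
    have vam : v m * a m = pm := by rw [ea m, um, hpm]; ring
    have vbm : v m * b m = pm + 3 := by rw [eb m, hpm]; linear_combination 3 * sm
    have tq : ∀ {e x y : ℤ} {A D : ℤ}, e ^ 2 = 1 → x ≠ 0 → e * y = A → e * x = D →
        (e : ℚ) * (y : ℚ) ^ 2 / x = (A : ℚ) ^ 2 / D := by
      intro e x y A D he hx hA hD
      have := tm (al := e) (be := y) (ga := y) he hx (show e * e = 1 by rw [← pow_two]; exact he) hA hA hD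
      rw [show (e : ℚ) * (y : ℚ) ^ 2 / x = (e : ℚ) * y * y / x by ring, this]
      push_cast; ring
    have T1 := triple (une si (hdne i)) (une sj (hdne j)) (une sk (hdne k)) (by linarith) huc' hp12
      (show pi ^ 2 + pj ^ 2 + pk ^ 2 ≤ 7 by linarith) (by
        rw [tq si (hdne i) ubi rfl, tq sj (hdne j) ubj rfl, tq sk (hdne k) ubk rfl] at F5
        push_cast at F5 ⊢
        linarith)
    have T2 := triple (une si (hdne i)) (une sl (hdne l)) (une sm (hdne m)) (by linarith) hvc' hp12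
      (show pi ^ 2 + pl ^ 2 + pm ^ 2 ≤ 7 by linarith) (by
        rw [tq si (hdne i) uai rfl, tq sl (hdne l) val rfl, tq sm (hdne m) vam rfl] at F6
        push_cast at F6 ⊢
        linarith)
    obtain ⟨gi, gj, gk, gjk⟩ := T1
    obtain ⟨-, gl, gm, glm⟩ := T2
    obtain ⟨δ, hδ⟩ : ∃ δ, δ = u j * d j := ⟨_, rfl⟩
    have dk' : u k * d k = δ := by rw [hδ, gjk]
    have di' : u i * d i = -2 * δ := by rw [hδ]; linarith
    have dl' : v l * d l = δ := by linarith
    have dm' : v m * d m = δ := by linarith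
    rw [gi] at hpi uai ubi hcc'
    rw [gj] at hpj uaj ubj hcc'
    rw [gk] at hpk uak ubk hcc'
    rw [gl] at hpl val vbl hcc'
    rw [gm] at hpm vam vbm hcc'
    have hδne : δ ≠ 0 := by rw [hδ]; exact une sj (hdne j)
    -- the rest
    have hR3 : ∑ x ∈ R, c x ^ 2 = 3 := by linarith
    obtain ⟨R', hR'⟩ : ∃ R', R' = R.filter (fun x => c x ≠ 0) := ⟨_, rfl⟩
    have fR : ∑ x ∈ R', c x ^ 2 = ((3 : ℕ) : ℤ) := by
      rw [hR', Finset.sum_filter_of_ne, hR3]; · rfl
      intro i _ h h0; exact h (by rw [h0]; ring)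
    obtain ⟨hR'3, hR'1⟩ := card_two R' c (by intro i hi; rw [hR'] at hi; exact (Finset.mem_filter.1 hi).2) 3
      (by norm_num) fR
    obtain ⟨r, s, t, hrs, hrt, hst, hRe⟩ := Finset.card_eq_three.1 hR'3
    have sR : ∀ {M : Type} [AddCommMonoid M] (f : I → M), (∀ i, c i = 0 → f i = 0) →
        ∑ x ∈ R, f x = f r + (f s + f t) := by
      intro M _ f hf
      rw [← Finset.sum_filter_of_ne (p := fun i => c i ≠ 0) (fun i _ h h0 => h (hf i h0)), ← hR', hRe,
        Finset.sum_insert (by simp [hrs, hrt]), Finset.sum_pair hst]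
    have hrR : r ∈ R' := by rw [hRe]; simp
    have hsR : s ∈ R' := by rw [hRe]; simp
    have htR : t ∈ R' := by rw [hRe]; simp
    have R'R : ∀ x ∈ R', x ∈ R := by intro x hx; rw [hR'] at hx; exact (Finset.mem_filter.1 hx).1
    have acR : ∀ x ∈ R', a x = c x ∧ b x = c x := by
      intro x hx
      obtain ⟨h1, h2⟩ := hRm x (R'R x hx)
      constructor
      · rw [ea x, h1]; ring
      · rw [eb x, h2]; ring
    have cE : ∀ x ∈ R', (9 : ℤ) ∣ c x * d x - 1 := by
      intro x hx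
      obtain ⟨h1, h2⟩ := acR x hx
      have h3 := h9 x
      rw [h1, h2] at h3
      have h4 : (9 : ℤ) ∣ c x * (d x - c x - c x + c x) := Dvd.dvd.mul_left h3 _
      have h5 : c x * (d x - c x - c x + c x) = c x * d x - 1 := by
        linear_combination -(hR'1 x hx)
      rwa [h5] at h4
    have cδ : (9 : ℤ) ∣ δ - 2 := by
      have h3 : (9 : ℤ) ∣ u j * (d j - a j - b j + c j) := Dvd.dvd.mul_left (h9 j) _
      have h5 : u j * (d j - a j - b j + c j) = δ - 2 := by
        rw [hδ]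
        linear_combination -uaj - ubj - hpj
      rwa [h5] at h3
    rw [splitZ, sR _ (fun x hx => by rw [hx]; ring)] at hcd
    have cd : ∀ {e x y p D : ℤ}, e ^ 2 = 1 → p = e * x → e * y = D → x * y = p * D := by
      intro e x y p D he hp hD
      rw [hp, ← hD]; linear_combination (-(x * y)) * he
    rw [hc0, hd0, cd si hpi di', cd sj hpj hδ.symm, cd sk hpk dk', cd sl hpl dl', cd sm hpm dm'] at hcd
    have hsum : 1 + c r * d r + c s * d s + c t * d t = 2 * δ := by linarith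
    have qR : ∀ x ∈ R', (a x : ℚ) ^ 2 * (c x : ℚ) / (d x : ℚ) = 1 / ((c x * d x : ℤ) : ℚ) ∧
        (a x : ℚ) * (b x : ℚ) * (c x : ℚ) / (d x : ℚ) = 1 / ((c x * d x : ℤ) : ℚ) := by
      intro x hx
      obtain ⟨h1, h2⟩ := acR x hx
      have h3 := hR'1 x hx
      have h4 := tm (al := c x) (be := c x) (ga := c x) h3 (hdne x)
        (show c x * c x = 1 by rw [← pow_two]; exact h3) (show c x * c x = 1 by rw [← pow_two]; exact h3)
        (show c x * c x = 1 by rw [← pow_two]; exact h3) rfl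
      rw [h1, h2]
      constructor
      · rw [pow_two, h4]; norm_num
      · rw [h4]; norm_num
    have t2 : ∀ {e x y z : ℤ} {A C D : ℤ}, e ^ 2 = 1 → x ≠ 0 → e * y = A → C = e * z → e * x = D →
        (y : ℚ) ^ 2 * (z : ℚ) / x = (A : ℚ) ^ 2 * C / D := by
      intro e x y z A C D he hx hA hC hD
      have := tm (al := y) (be := y) (ga := z) he hx hA hA hC.symm hD
      rw [pow_two, this]; push_cast; ring
    have hzero3 : ∀ x, c x = 0 → (a x : ℚ) ^ 2 * (c x : ℚ) / (d x : ℚ) = 0 := by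
      intro x hx; rw [hx]; simp
    have hzero4 : ∀ x, c x = 0 → (a x : ℚ) * (b x : ℚ) * (c x : ℚ) / (d x : ℚ) = 0 := by
      intro x hx; rw [hx]; simp
    rw [splitQ, sR _ hzero3, (qR r hrR).1, (qR s hsR).1, (qR t htR).1, ha0, hc0, hd0,
      t2 si (hdne i) uai hpi di', t2 sj (hdne j) uaj hpj hδ.symm, t2 sk (hdne k) uak hpk dk',
      t2 sl (hdne l) val hpl dl', t2 sm (hdne m) vam hpm dm'] at F3
    have hδq : (δ : ℚ) ≠ 0 := by exact_mod_cast hδne
    have hinv : 1 + (1 : ℚ) / ((c r * d r : ℤ) : ℚ) + 1 / ((c s * d s : ℤ) : ℚ) + 1 / ((c t * d t : ℤ) : ℚ) = 8 / δ := by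
      push_cast at F3 ⊢
      have e1 : (2 : ℚ) ^ 2 * -1 / (-2 * δ) = 2 / δ := by field_simp
      have e2 : (2 : ℚ) ^ 2 * -1 / δ = -4 / δ := by norm_num
      have e3 : (-1 : ℚ) ^ 2 * -1 / δ = -1 / δ := by norm_num
      rw [e1, e2, e3] at F3
      have e4 : (8 : ℚ) / δ = -(2 / δ) - (-4 / δ) - (-4 / δ) - (-1 / δ) - (-1 / δ) := by ring
      rw [e4]
      linarith
    obtain ⟨f1, f2⟩ := final (cE r hrR) (cE s hsR) (cE t htR) cδ hsum hinv
    rw [splitQ, sR _ hzero4, (qR r hrR).2, (qR s hsR).2, (qR t htR).2, ha0, hb0, hc0, hd0,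
      tm si (hdne i) uai ubi hpi.symm di', tm sj (hdne j) uaj ubj hpj.symm hδ.symm,
      tm sk (hdne k) uak ubk hpk.symm dk', tm sl (hdne l) val vbl hpl.symm dl',
      tm sm (hdne m) vam vbm hpm.symm dm', f1]
    have e5 : (1 : ℚ) / ((c r * d r : ℤ) : ℚ) + (1 / ((c s * d s : ℤ) : ℚ) + 1 / ((c t * d t : ℤ) : ℚ)) = 3 := by
      linarith
    rw [e5]
    norm_num
  · exfalso
    have hWU : W = U := Finset.eq_of_subset_of_card_le (by rw [hW]; exact Finset.inter_subset_left) (by rw [hU3, hW3])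
    have hWV : W = V := Finset.eq_of_subset_of_card_le (by rw [hW]; exact Finset.inter_subset_right) (by rw [hV3, hW3])
    rw [← hWU] at huc F5
    rw [← hWV] at hvc F6
    obtain ⟨i, j, k, hij, hik, hjk, hWe⟩ := Finset.card_eq_three.1 hW3
    have eW : ∀ {M : Type} [AddCommMonoid M] (f : I → M), ∑ x ∈ W, f x = f i + (f j + f k) := by
      intro M _ f
      rw [hWe, Finset.sum_insert (by simp [hij, hik]), Finset.sum_pair hjk]
    rw [eW] at huc hvc F5 F6 huvW
    have miW : i ∈ W := by rw [hWe]; simp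
    have mjW : j ∈ W := by rw [hWe]; simp
    have mkW : k ∈ W := by rw [hWe]; simp
    have si := hU1 i (hWU ▸ miW)
    have sj := hU1 j (hWU ▸ mjW)
    have sk := hU1 k (hWU ▸ mkW)
    have rel : ∀ {x y : ℤ}, x ^ 2 = 1 → (x * y = 1 → y = x) ∧ (x * y = -1 → y = -x) := by
      intro x y hx
      rcases sq_one hx with h | h <;> subst h
      · exact ⟨fun h => by linarith, fun h => by linarith⟩
      · exact ⟨fun h => by linarith, fun h => by linarith⟩
    rcases hWu i miW with h1 | h1 <;> rcases hWu j mjW with h2 | h2 <;> rcases hWu k mkW with h3 | h3 <;>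
      rw [h1, h2, h3] at huvW
    · omega
    · exact three sk (hdne k) ((rel si).1 h1) ((rel sj).1 h2) ((rel sk).2 h3) (by linarith) (by linarith)
        (ea i) (ea j) (ea k) (eb i) (eb j) (eb k) (by linarith) (by linarith)
    · exact three sj (hdne j) ((rel si).1 h1) ((rel sk).1 h3) ((rel sj).2 h2) (by linarith) (by linarith)
        (ea i) (ea k) (ea j) (eb i) (eb k) (eb j) (by linarith) (by linarith)
    · omega
    · exact three si (hdne i) ((rel sk).1 h3) ((rel sj).1 h2) ((rel si).2 h1) (by linarith) (by linarith)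
        (ea k) (ea j) (ea i) (eb k) (eb j) (eb i) (by linarith) (by linarith)
    · omega
    · omega
    · omega

end Cfsg.Agent.H19.V9a
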