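import Mathlib
import Cfsg.Agent.H19_A6b
import Cfsg.Agent.H19_V9a

/-! Sylow 3-subgroup of order nine with Klein four automizer: character theory. -/

set_option autoImplicit false
open scoped ComplexConjugate
namespace Cfsg.Agent.H19.V9b
open Cfsg Cfsg.Agent.H3.CharBasic Cfsg.Agent.H3.CharIrr Cfsg.Agent.H3.CharComplete
  Cfsg.Agent.H3.CharMult Cfsg.Agent.H3.CharInd Cfsg.Agent.H3.CharCalc Cfsg.Agent.H3.InvSum
  Cfsg.Agent.H3.CharGal Cfsg.Agent.H3.CharInt Cfsg.Agent.H3.CharQuot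

/-- counting, in terms of conjugates -/
theorem pairs {G : Type*} [Group G] [Fintype G] [DecidableEq G] {a b g : G} {m n : ℕ}
    (ha : Nat.card (Subgroup.centralizer ({a} : Set G)) = m)
    (hb : Nat.card (Subgroup.centralizer ({b} : Set G)) = n)
    [DecidablePred (IsConj a)] [DecidablePred (IsConj b)] :
    (Finset.univ.filter (fun p : G × G => p.1 * a * p.1⁻¹ * (p.2 * b * p.2⁻¹) = g)).card =
      m * n * (Finset.univ.filter (fun z : G => IsConj a z ∧ IsConj b (z⁻¹ * g))).card := by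
  rw [Finset.card_filter, Fintype.sum_prod_type]
  have h1 : ∀ z : G, ∑ w : G, (if z * (w * b * w⁻¹) = g then 1 else 0) = if IsConj b (z⁻¹ * g) then n else 0 := by
    intro z
    have h2 := sum_conj (fun w => if z * w = g then (1 : ℕ) else 0) b
    rw [h2, hb, Finset.sum_ite, Finset.sum_const_zero, add_zero, Finset.sum_const, smul_eq_mul, smul_eq_mul, mul_one]
    have h3 : Finset.filter (fun w => z * w = g) (Finset.univ.filter (IsConj b)) =
        if IsConj b (z⁻¹ * g) then {z⁻¹ * g} else ∅ := by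
      ext w
      split_ifs with h
      · simp only [Finset.mem_filter, Finset.mem_univ, true_and, Finset.mem_singleton]
        constructor
        · rintro ⟨_, h5⟩; rw [← h5]; group
        · rintro rfl; exact ⟨h, by group⟩
      · simp only [Finset.mem_filter, Finset.mem_univ, true_and, Finset.notMem_empty, iff_false, not_and]
        intro h4 h5
        apply h
        rw [← h5, inv_mul_cancel_left]; exact h4
    rw [h3]
    split_ifs <;> simp
  have h4 : ∀ u : G, ∑ w : G, (if (u, w).1 * a * (u, w).1⁻¹ * ((u, w).2 * b * (u, w).2⁻¹) = g then 1 else 0) =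
      if IsConj b ((u * a * u⁻¹)⁻¹ * g) then n else 0 := fun u => h1 (u * a * u⁻¹)
  rw [Finset.sum_congr rfl fun u _ => h4 u, sum_conj (fun z => if IsConj b (z⁻¹ * g) then n else 0) a, ha,
    ← Finset.sum_filter, Finset.sum_const, Finset.filter_filter, smul_eq_mul, smul_eq_mul]
  ring

theorem main {G : Type*} [Group G] [Fintype G] {x y z : G} (T : Subgroup G)
    (hx : orderOf x = 3) (hy : orderOf y = 3) (hz : orderOf z = 3)
    (hcx : Nat.card (Subgroup.centralizer ({x} : Set G)) = 18)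
    (hcy : Nat.card (Subgroup.centralizer ({y} : Set G)) = 18)
    (hcz : Nat.card (Subgroup.centralizer ({z} : Set G)) = 9)
    (hrx : IsConj x x⁻¹) (hry : IsConj y y⁻¹) (hrz : IsConj z z⁻¹)
    (hxy : ¬ IsConj x y) (hxz : ¬ IsConj x z) (hyz : ¬ IsConj y z) (hT : Nat.card T = 9) [Fintype T]
    (hsum : ∀ f : G → ℂ, (∀ a b, IsConj a b → f a = f b) → ∑ s : T, f s = f 1 + 2 * f x + 2 * f y + 4 * f z)
    (n1 : ∀ w, IsConj x w → IsConj x (w⁻¹ * y) → False)
    (n2 : ∀ w, IsConj y w → IsConj y (w⁻¹ * x) → False)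
    (n3 : ∀ w, IsConj x w → IsConj x (w⁻¹ * z) → False)
    (n4 : ∀ w, IsConj y w → IsConj y (w⁻¹ * z) → False)
    [DecidablePred (IsConj x)] [DecidablePred (IsConj y)] :
    Nat.card G * 9 = 324 * (Finset.univ.filter (fun w : G => IsConj x w ∧ IsConj y (w⁻¹ * z))).card := by
  classical
  have hx1 : x ≠ 1 := by rintro rfl; rw [orderOf_one] at hx; omega
  have hy1 : y ≠ 1 := by rintro rfl; rw [orderOf_one] at hy; omega
  have hz1 : z ≠ 1 := by rintro rfl; rw [orderOf_one] at hz; omega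
  letI : Fintype (IrrCharacter G) := Fintype.ofFinite _
  choose a ha using fun χ : IrrCharacter G => FT1.int_x (IsIrr.isCharacter χ.2) hx hrx
  choose b hb using fun χ : IrrCharacter G => FT1.int_x (IsIrr.isCharacter χ.2) hy hry
  choose c hc using fun χ : IrrCharacter G => FT1.int_x (IsIrr.isCharacter χ.2) hz hrz
  have hdeg : ∀ χ : IrrCharacter G, ∃ d : ℤ, (χ : G → ℂ) 1 = d ∧ 1 ≤ d := by
    intro χ
    obtain ⟨m, hm⟩ := IsChar.one_eq_nat (IsIrr.isCharacter χ.2)
    have h0 := IsIrr.one_ne_zero χ.2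
    refine ⟨m, by rw [hm]; simp, ?_⟩
    have : m ≠ 0 := by
      rintro rfl
      exact h0 (by rw [hm]; simp)
    have : 1 ≤ m := by omega
    exact_mod_cast this
  choose d hd1 hd using hdeg
  have inner : ∀ {g h : G} {u v : IrrCharacter G → ℤ} {n : ℤ}, (∀ χ : IrrCharacter G, (χ : G → ℂ) g = u χ) →
      (∀ χ : IrrCharacter G, (χ : G → ℂ) h = v χ) →
      (if IsConj g h then (Nat.card (Subgroup.centralizer ({g} : Set G)) : ℂ) else 0) = n → ∑ χ, u χ * v χ = n := by
    intro g h u v n hu hv hn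
    have := orth2 g h
    rw [hn] at this
    have e : ∀ χ : IrrCharacter G, (χ : G → ℂ) g * conj ((χ : G → ℂ) h) = ((u χ * v χ : ℤ) : ℂ) := by
      intro χ; rw [hu, hv]; simp
    rw [Finset.sum_congr rfl fun χ _ => e χ] at this
    exact_mod_cast this
  have zero1 : ∀ {g : G} {u : IrrCharacter G → ℤ}, g ≠ 1 → (∀ χ : IrrCharacter G, (χ : G → ℂ) g = u χ) →
      ∑ χ, u χ * d χ = 0 := by
    intro g u hg hu
    have := sum_one_mul g
    rw [if_neg hg] at this
    have e : ∀ χ : IrrCharacter G, (χ : G → ℂ) 1 * (χ : G → ℂ) g = ((u χ * d χ : ℤ) : ℂ) := by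
      intro χ; rw [hu, hd1]; push_cast; ring
    rw [Finset.sum_congr rfl fun χ _ => e χ] at this
    exact_mod_cast this
  have haa : ∑ χ : IrrCharacter G, (a χ) ^ 2 = 18 := by
    simp_rw [pow_two]
    exact inner ha ha (by rw [if_pos (IsConj.refl x), hcx]; norm_num)
  have hbb : ∑ χ : IrrCharacter G, (b χ) ^ 2 = 18 := by
    simp_rw [pow_two]
    exact inner hb hb (by rw [if_pos (IsConj.refl y), hcy]; norm_num)
  have hcc : ∑ χ : IrrCharacter G, (c χ) ^ 2 = 9 := by
    simp_rw [pow_two]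
    exact inner hc hc (by rw [if_pos (IsConj.refl z), hcz]; norm_num)
  have hab := inner (n := 0) ha hb (by rw [if_neg hxy]; norm_num)
  have hac := inner (n := 0) ha hc (by rw [if_neg hxz]; norm_num)
  have hbc := inner (n := 0) hb hc (by rw [if_neg hyz]; norm_num)
  have one_val : ∀ {u : IrrCharacter G → ℤ} {g : G}, (∀ χ : IrrCharacter G, (χ : G → ℂ) g = u χ) →
      u ⟨fun _ => 1, isIrr_one⟩ = 1 := by
    intro u g hu
    have := hu ⟨fun _ => 1, isIrr_one⟩
    have h1 : ((1 : ℤ) : ℂ) = (u ⟨fun _ => 1, isIrr_one⟩ : ℂ) := by rw [← this]; norm_num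
    exact_mod_cast h1.symm
  have m3a : ∀ χ, (3 : ℤ) ∣ d χ - a χ := fun χ => A6b.mod_three (IsIrr.isCharacter χ.2) hx hrx (ha χ) (hd1 χ)
  have m3b : ∀ χ, (3 : ℤ) ∣ d χ - b χ := fun χ => A6b.mod_three (IsIrr.isCharacter χ.2) hy hry (hb χ) (hd1 χ)
  have m3c : ∀ χ, (3 : ℤ) ∣ d χ - c χ := fun χ => A6b.mod_three (IsIrr.isCharacter χ.2) hz hrz (hc χ) (hd1 χ)
  have m9 : ∀ χ, (9 : ℤ) ∣ d χ + 2 * a χ + 2 * b χ + 4 * c χ := by
    intro χ
    obtain ⟨m, hm⟩ := A6b.res_sum (IsIrr.isCharacter χ.2) T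
    rw [hsum _ (fun a b hab => IsClass.eq_of_isConj (IsIrr.isClass χ.2) hab), hT, ha, hb, hc, hd1] at hm
    have h2 : d χ + 2 * a χ + 2 * b χ + 4 * c χ = m * 9 := by exact_mod_cast hm
    exact ⟨m, by rw [h2]; ring⟩
  have cm : ∀ {g h k : G} {u v w : IrrCharacter G → ℤ} {m n : ℕ} [DecidablePred (IsConj g)] [DecidablePred (IsConj h)],
      Nat.card (Subgroup.centralizer ({g} : Set G)) = m →
      Nat.card (Subgroup.centralizer ({h} : Set G)) = n → (∀ χ : IrrCharacter G, (χ : G → ℂ) g = u χ) →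
      (∀ χ : IrrCharacter G, (χ : G → ℂ) h = v χ) → (∀ χ : IrrCharacter G, (χ : G → ℂ) k = w χ) →
      (Nat.card G : ℚ) * ∑ χ, (u χ : ℚ) * v χ * w χ / d χ =
        ((m * n * (Finset.univ.filter (fun z : G => IsConj g z ∧ IsConj h (z⁻¹ * k))).card : ℕ) : ℚ) := by
    intro g h k u v w m n _ _ hm hn hu hv hw
    have hmm := class_mult g h k
    rw [pairs hm hn] at hmm
    have e : ∀ χ : IrrCharacter G, (χ : G → ℂ) g * (χ : G → ℂ) h * conj ((χ : G → ℂ) k) / (χ : G → ℂ) 1 =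
        (((u χ : ℚ) * (v χ : ℚ) * (w χ : ℚ) / (d χ : ℚ) : ℚ) : ℂ) := by
      intro χ; rw [hu, hv, hw, hd1]; simp
    rw [Finset.sum_congr rfl fun χ _ => e χ] at hmm
    have hm' : (((m * n * (Finset.univ.filter (fun z : G => IsConj g z ∧ IsConj h (z⁻¹ * k))).card : ℕ) : ℚ) : ℂ) =
        (((Nat.card G : ℚ) * ∑ χ : IrrCharacter G, (u χ : ℚ) * (v χ : ℚ) * (w χ : ℚ) / (d χ : ℚ) : ℚ) : ℂ) := by
      push_cast
      push_cast at hmm
      exact hmm
    exact (Rat.cast_injective hm').symm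
  have hG0 : (Nat.card G : ℚ) ≠ 0 := by exact_mod_cast Nat.card_pos.ne'
  have zer : ∀ {g k : G} {u w : IrrCharacter G → ℤ} {m : ℕ},
      Nat.card (Subgroup.centralizer ({g} : Set G)) = m → (∀ χ : IrrCharacter G, (χ : G → ℂ) g = u χ) →
      (∀ χ : IrrCharacter G, (χ : G → ℂ) k = w χ) → (∀ z, IsConj g z → IsConj g (z⁻¹ * k) → False) →
      ∑ χ, (u χ : ℚ) ^ 2 * w χ / d χ = 0 := by
    intro g k u w m hm hu hw hn
    have h1 := cm hm hm hu hu hw
    rw [Finset.filter_eq_empty_iff.2 (fun z _ hz => hn z hz.1 hz.2), Finset.card_empty, mul_zero, Nat.cast_zero] at h1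
    have h2 := (mul_eq_zero.1 h1).resolve_left hG0
    rw [← h2]
    exact Finset.sum_congr rfl fun χ _ => by ring
  have key := V9a.arith (⟨fun _ => 1, isIrr_one⟩ : IrrCharacter G) a b c d hd (one_val hc) (one_val ha) (one_val hb)
    (one_val hd1) haa hbb hcc hab hac hbc (zero1 hx1 ha) (zero1 hy1 hb) (zero1 hz1 hc)
    (fun χ => by have := m3a χ; have := m3c χ; omega) (fun χ => by have := m3b χ; have := m3c χ; omega)
    (fun χ => by have := m3a χ; have := m3b χ; have := m3c χ; have := m9 χ; omega)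
    (zer hcx ha hb n1) (zer hcy hb ha n2) (zer hcx ha hc n3) (zer hcy hb hc n4)
  have h1 := cm hcx hcy ha hb hc
  rw [key] at h1
  have h2 : ((Nat.card G * 9 : ℕ) : ℚ) =
      ((18 * 18 * (Finset.univ.filter (fun w : G => IsConj x w ∧ IsConj y (w⁻¹ * z))).card : ℕ) : ℚ) := by
    rw [← h1]; push_cast; ring
  have h3 := Nat.cast_injective h2
  rw [h3]

end Cfsg.Agent.H19.V9b
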