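import Mathlib
import Cfsg.Agent.H19_V9b
import Cfsg.Agent.H19_A6d
import Cfsg.Agent.H1_Basic

/-! Sylow 3-subgroup of order nine with local centralizers: group theory. -/

set_option autoImplicit false
namespace Cfsg.Agent.H19.V9c
open Subgroup
open scoped Pointwise
open Cfsg.Agent.H19.A6c (tri_comm tri_conj)

structure Vx {G : Type*} [Group G] (T : Subgroup G) : Prop where
  comm : ∀ a ∈ T, ∀ b ∈ T, a * b = b * a
  h3 : ∀ a ∈ T, a ^ 3 = 1
  h9 : Nat.card T = 9
  cen : ∀ g, (∀ s ∈ T, g * s = s * g) → g ∈ T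
  loc : ∀ s ∈ T, s ≠ 1 → Subgroup.centralizer ({s} : Set G) ≤ Subgroup.normalizer (T : Set G)
  n3 : ∀ x ∈ Subgroup.normalizer (T : Set G), x ^ 3 = 1 → x ∈ T
  cov : ∀ w : G, orderOf w = 3 → ∃ g : G, g * w * g⁻¹ ∈ T

theorem Vx.of {G : Type*} [Group G] [Finite G] (P : Sylow 3 G) (hcomm : ∀ a ∈ (P : Subgroup G), ∀ b ∈ (P : Subgroup G), a * b = b * a)
    (hexp : ∀ a ∈ (P : Subgroup G), a ^ 3 = 1) (hcard : Nat.card P = 9)
    (hcent : Subgroup.centralizer ((P : Subgroup G) : Set G) = P)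
    (hloc : ∀ t ∈ (P : Subgroup G), t ≠ 1 →
      Subgroup.centralizer ({t} : Set G) ≤ Subgroup.normalizer ((P : Subgroup G) : Set G)) : Vx (P : Subgroup G) := by
  haveI : Fact (Nat.Prime 3) := ⟨by norm_num⟩
  have hpow : ∀ w : G, w ^ 3 = 1 → IsPGroup 3 (Subgroup.zpowers w) := by
    intro w hw
    rw [IsPGroup.iff_card]
    rw [Nat.card_zpowers]
    exact (Nat.dvd_prime_pow (by norm_num)).1 (by rw [pow_one]; exact orderOf_dvd_of_pow_eq_one hw : orderOf w ∣ 3 ^ 1) |>.imp
      (fun _ h => h.2)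
  refine ⟨hcomm, hexp, hcard, ?_, hloc, ?_, ?_⟩
  · intro g hg
    have : g ∈ Subgroup.centralizer ((P : Subgroup G) : Set G) := by
      rw [Subgroup.mem_centralizer_iff]
      intro s hs
      exact (hg s hs).symm
    rwa [hcent] at this
  · intro x hx h3
    have h1 : IsPGroup 3 ((Subgroup.zpowers x ⊔ (P : Subgroup G) : Subgroup G)) :=
      IsPGroup.to_sup_of_normal_right' (hpow x h3) P.isPGroup' (by
        rw [Subgroup.zpowers_le]; exact hx)
    have h2 := P.is_maximal' h1 le_sup_right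
    have h3 : x ∈ (Subgroup.zpowers x ⊔ (P : Subgroup G) : Subgroup G) :=
      (le_sup_left : Subgroup.zpowers x ≤ _) (Subgroup.mem_zpowers x)
    rw [h2] at h3; exact h3
  · intro w hw
    obtain ⟨Q, hQ⟩ := (hpow w (by rw [← hw]; exact pow_orderOf_eq_one w)).exists_le_sylow
    obtain ⟨g, hg⟩ := MulAction.exists_smul_eq G Q P
    refine ⟨g, ?_⟩
    rw [← hg]
    have : w ∈ (Q : Subgroup G) := hQ (Subgroup.mem_zpowers w)
    rw [Sylow.coe_subgroup_smul]
    exact Subgroup.smul_mem_pointwise_smul _ (MulAut.conj g) _ this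

variable {G : Type*} [Group G] {T : Subgroup G}

theorem Vx.mem_N (h : Vx T) {s x : G} (hs : s ∈ T) (h1 : s ≠ 1) (hx : x * s = s * x) :
    x ∈ Subgroup.normalizer (T : Set G) := by
  apply h.loc s hs h1
  rw [Subgroup.mem_centralizer_singleton_iff]
  exact hx

theorem Vx.ti (h : Vx T) [Finite G] {s g : G} (hs : s ∈ T) (h1 : s ≠ 1) (hg : g * s * g⁻¹ ∈ T) :
    g ∈ Subgroup.normalizer (T : Set G) := by
  have hg1 : g * s * g⁻¹ ≠ 1 := by
    intro h2; exact h1 (by simpa using h2)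
  have key : ∀ x ∈ T, g * x * g⁻¹ ∈ T := by
    intro x hx
    apply h.n3
    · apply h.mem_N hg hg1
      have := h.comm x hx s hs
      calc g * x * g⁻¹ * (g * s * g⁻¹) = g * (x * s) * g⁻¹ := by group
        _ = g * (s * x) * g⁻¹ := by rw [this]
        _ = _ := by group
    · have := map_pow (MulAut.conj g) x 3
      simp only [MulAut.conj_apply] at this
      rw [← this, h.h3 x hx]; simp
  have hle : MulAut.conj g • T ≤ T := by
    intro y hy
    rw [Cfsg.Agent.H1.Basic.mem_conj] at hy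
    have := key _ hy
    have e : g * (g⁻¹ * y * g) * g⁻¹ = y := by group
    rwa [e] at this
  have heq := Cfsg.Agent.H1.Basic.eq_of_le_of_card_ge' hle (by rw [Cfsg.Agent.H1.Basic.card_conj])
  exact Cfsg.Agent.H1.Basic.conj_eq_iff_mem_normalizer.1 heq

theorem Vx.order (h : Vx T) {s : G} (hs : s ∈ T) (h1 : s ≠ 1) : orderOf s = 3 :=
  orderOf_eq_prime (hp := ⟨by norm_num⟩) (h.h3 s hs) h1

theorem Vx.sol [Finite G] (h : Vx T) {x y : G} (hx : x ∈ T) (hx1 : x ≠ 1) (hy : orderOf y = 3)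
    (hz : (y⁻¹ * x) ^ 3 = 1) (hn : ¬ IsConj x⁻¹ y) : y ∈ T := by
  have hx3 := h.h3 x hx
  have hy3 : y ^ 3 = 1 := by rw [← hy]; exact pow_orderOf_eq_one y
  obtain ⟨v, hv⟩ : ∃ v, v = y * x := ⟨_, rfl⟩
  have hd : 3 ∣ orderOf v := by
    by_contra hd
    have hcop : Nat.Coprime 3 (orderOf v) := (Nat.Prime.coprime_iff_not_dvd (by norm_num)).2 hd
    have hm : ∃ m, v ^ (3 * m) = v := by
      rcases Nat.lt_or_ge 1 (orderOf v) with h1 | h1
      · obtain ⟨m, _, hm⟩ := Nat.exists_mul_mod_eq_one_of_coprime hcop h1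
        refine ⟨m, ?_⟩
        rw [← pow_mod_orderOf, hm, pow_one]
      · have : orderOf v = 1 := by have := orderOf_pos v; omega
        rw [orderOf_eq_one_iff] at this
        exact ⟨0, by rw [this]; simp⟩
    obtain ⟨m, hm⟩ := hm
    exact hn (tri_conj hx3 hy3 hz hv hm)
  obtain ⟨k, hk⟩ : ∃ k, k = orderOf v / 3 := ⟨_, rfl⟩
  obtain ⟨w, hw⟩ : ∃ w, w = v ^ k := ⟨_, rfl⟩
  have hw3 : orderOf w = 3 := by
    rw [hw, hk, orderOf_pow_of_dvd (Nat.div_ne_zero_iff_of_dvd hd |>.2 ⟨(orderOf_pos v).ne', by norm_num⟩)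
      (Nat.div_dvd_of_dvd hd)]
    exact Nat.div_div_self hd (orderOf_pos v).ne'
  obtain ⟨g, hg⟩ := h.cov w hw3
  have hw1 : g * w * g⁻¹ ≠ 1 := by
    intro h2
    have : w = 1 := by simpa using h2
    rw [this, orderOf_one] at hw3; omega
  have hvw : v * w = w * v := by rw [hw]; exact ((Commute.refl v).pow_right _).eq
  have hcomm := tri_comm hx3 hy3 hz hv
  have hxw : x * w * x⁻¹ * w = w * (x * w * x⁻¹) := by
    have h1 : Commute (x * v * x⁻¹) v := hcomm.symm
    have h2 : Commute ((x * v * x⁻¹) ^ k) (v ^ k) := (h1.pow_left k).pow_right k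
    have h3 : (x * v * x⁻¹) ^ k = x * v ^ k * x⁻¹ := by
      have := map_pow (MulAut.conj x) v k
      simp only [MulAut.conj_apply] at this
      exact this.symm
    rw [h3, ← hw] at h2
    exact h2.eq
  -- the conjugates
  have hxwS : g * (x * w * x⁻¹) * g⁻¹ ∈ T := by
    apply h.n3
    · apply h.mem_N hg hw1
      calc g * (x * w * x⁻¹) * g⁻¹ * (g * w * g⁻¹) = g * (x * w * x⁻¹ * w) * g⁻¹ := by group
        _ = _ := by rw [hxw]; group
    · have h1 := map_pow (MulAut.conj (g * x)) w 3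
      simp only [MulAut.conj_apply] at h1
      have e : g * (x * w * x⁻¹) * g⁻¹ = g * x * w * (g * x)⁻¹ := by group
      have h4 : w ^ 3 = 1 := by rw [← hw3]; exact pow_orderOf_eq_one w
      rw [e, ← h1, h4]; simp
  have hxN : g * x * g⁻¹ ∈ Subgroup.normalizer (T : Set G) := by
    apply h.ti hg hw1
    have : g * x * g⁻¹ * (g * w * g⁻¹) * (g * x * g⁻¹)⁻¹ = g * (x * w * x⁻¹) * g⁻¹ := by group
    rw [this]; exact hxwS
  have hxS : g * x * g⁻¹ ∈ T := by
    apply h.n3 _ hxN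
    have := map_pow (MulAut.conj g) x 3
    simp only [MulAut.conj_apply] at this
    rw [← this, hx3]; simp
  have hgN := h.ti hx hx1 hxS
  have hvN : g * v * g⁻¹ ∈ Subgroup.normalizer (T : Set G) := by
    apply h.mem_N hg hw1
    calc g * v * g⁻¹ * (g * w * g⁻¹) = g * (v * w) * g⁻¹ := by group
      _ = _ := by rw [hvw]; group
  have hyN : g * y * g⁻¹ ∈ T := by
    apply h.n3
    · have : g * y * g⁻¹ = (g * v * g⁻¹) * (g * x * g⁻¹)⁻¹ := by rw [hv]; group
      rw [this]
      exact mul_mem hvN (inv_mem (Subgroup.le_normalizer hxS))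
    · have := map_pow (MulAut.conj g) y 3
      simp only [MulAut.conj_apply] at this
      rw [← this, hy3]; simp
  exact (Subgroup.mem_normalizer_iff.1 hgN y).2 hyN

theorem Vx.orb [Finite G] (h : Vx T) {x : G} (hx : x ∈ T) (hx1 : x ≠ 1) :
    Nat.card {y : G // y ∈ T ∧ IsConj x y} * Nat.card (Subgroup.centralizer ({x} : Set G)) =
      Nat.card (Subgroup.normalizer (T : Set G)) := by
  obtain ⟨N, hN⟩ : ∃ N, N = Subgroup.normalizer (T : Set G) := ⟨_, rfl⟩
  rw [← hN]
  letI : MulAction N G := MulAction.compHom G ((MulAut.conj : G →* MulAut G).comp N.subtype)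
  have hsm : ∀ (n : N) (g : G), n • g = n * g * (n : G)⁻¹ := fun _ _ => rfl
  have h2 : MulAction.orbit N x = {y | y ∈ T ∧ IsConj x y} := by
    ext y
    rw [MulAction.mem_orbit_iff]
    constructor
    · rintro ⟨n, rfl⟩
      have hn : (n : G) ∈ Subgroup.normalizer (T : Set G) := by rw [← hN]; exact n.2
      refine ⟨?_, isConj_iff.2 ⟨n, rfl⟩⟩
      rw [hsm]
      exact (Subgroup.mem_normalizer_iff.1 hn x).1 hx
    · rintro ⟨hy, hc⟩
      obtain ⟨g, hg⟩ := isConj_iff.1 hc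
      have hgN : g ∈ N := by rw [hN]; exact h.ti hx hx1 (by rw [hg]; exact hy)
      exact ⟨⟨g, hgN⟩, hg⟩
  have hCN : Subgroup.centralizer ({x} : Set G) ≤ N := by rw [hN]; exact h.loc x hx hx1
  have h3 : Nat.card (MulAction.stabilizer N x) = Nat.card (Subgroup.centralizer ({x} : Set G)) := by
    have h4 : (MulAction.stabilizer N x).map N.subtype = Subgroup.centralizer ({x} : Set G) := by
      ext y
      rw [Subgroup.mem_map, Subgroup.mem_centralizer_singleton_iff]
      constructor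
      · rintro ⟨n, hn, rfl⟩
        rw [MulAction.mem_stabilizer_iff, hsm] at hn
        exact mul_inv_eq_iff_eq_mul.1 hn
      · intro hy
        refine ⟨⟨y, hCN (Subgroup.mem_centralizer_singleton_iff.2 hy)⟩, ?_, rfl⟩
        rw [MulAction.mem_stabilizer_iff, hsm]
        exact mul_inv_eq_iff_eq_mul.2 hy
    rw [← h4, Subgroup.card_map_of_injective N.subtype_injective]
  have h5 := MulAction.index_stabilizer N x
  have h6 := (MulAction.stabilizer N x).index_mul_card
  rw [h3, h5, h2] at h6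
  exact h6

end Cfsg.Agent.H19.V9c
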