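import Mathlib
import Cfsg.Agent.H19_V9c

/-! Sylow 3-subgroup of order nine with Klein four automizer: the order. -/

set_option autoImplicit false
namespace Cfsg.Agent.H19.V9c
open Subgroup

/-- coordinates -/
structure Co {G : Type*} [Group G] (T : Subgroup G) (x y : G) : Prop where
  hx : x ∈ T
  hy : y ∈ T
  hx1 : x ≠ 1
  hy1 : y ≠ 1
  n1 : y ≠ x
  n2 : y ≠ x⁻¹
  cx : ∀ g ∈ Subgroup.normalizer (T : Set G), g * x * g⁻¹ = x ∨ g * x * g⁻¹ = x⁻¹
  cy : ∀ g ∈ Subgroup.normalizer (T : Set G), g * y * g⁻¹ = y ∨ g * y * g⁻¹ = y⁻¹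
  e1 : ∃ g : G, g * x * g⁻¹ = x⁻¹ ∧ g * y * g⁻¹ = y
  e2 : ∃ g : G, g * x * g⁻¹ = x ∧ g * y * g⁻¹ = y⁻¹

theorem final {G : Type*} [Group G] [Finite G] {T : Subgroup G} (h : Vx T) {x y : G} (c : Co T x y)
    (hN : Nat.card (Subgroup.normalizer (T : Set G)) = 36) : Nat.card G = 36 := by
  classical
  letI : Fintype G := Fintype.ofFinite G
  letI : Fintype T := Fintype.ofFinite T
  obtain ⟨z, hz⟩ : ∃ z, z = x * y := ⟨_, rfl⟩
  have hzT : z ∈ T := by rw [hz]; exact mul_mem c.hx c.hy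
  have hz1 : z ≠ 1 := by
    intro h1
    rw [hz] at h1
    exact c.n2 (eq_inv_of_mul_eq_one_right h1)
  have xx : x * x = x⁻¹ := by
    rw [eq_inv_iff_mul_eq_one, ← pow_two, ← pow_succ]; exact h.h3 x c.hx
  have yy : y * y = y⁻¹ := by
    rw [eq_inv_iff_mul_eq_one, ← pow_two, ← pow_succ]; exact h.h3 y c.hy
  have xx' : x⁻¹ * x⁻¹ = x := by rw [← mul_inv_rev, xx, inv_inv]
  have yy' : y⁻¹ * y⁻¹ = y := by rw [← mul_inv_rev, yy, inv_inv]
  have nx : x ≠ x⁻¹ := by
    intro e
    have : x * x = 1 := by nth_rw 2 [e]; exact mul_inv_cancel x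
    rw [xx] at this
    exact c.hx1 (inv_eq_one.1 this)
  have ny : y ≠ y⁻¹ := by
    intro e
    have : y * y = 1 := by nth_rw 2 [e]; exact mul_inv_cancel y
    rw [yy] at this
    exact c.hy1 (inv_eq_one.1 this)
  have hcm := h.comm x c.hx y c.hy
  -- fusion
  have fx : ∀ w ∈ T, IsConj x w → w = x ∨ w = x⁻¹ := by
    intro w hw hc
    obtain ⟨g, hg⟩ := isConj_iff.1 hc
    have hgN := h.ti c.hx c.hx1 (by rw [hg]; exact hw)
    rw [← hg]
    exact c.cx g hgN
  have fy : ∀ w ∈ T, IsConj y w → w = y ∨ w = y⁻¹ := by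
    intro w hw hc
    obtain ⟨g, hg⟩ := isConj_iff.1 hc
    have hgN := h.ti c.hy c.hy1 (by rw [hg]; exact hw)
    rw [← hg]
    exact c.cy g hgN
  obtain ⟨g1, g1x, g1y⟩ := c.e1
  obtain ⟨g2, g2x, g2y⟩ := c.e2
  have rx : IsConj x x⁻¹ := isConj_iff.2 ⟨g1, g1x⟩
  have ry : IsConj y y⁻¹ := isConj_iff.2 ⟨g2, g2y⟩
  have cj : ∀ (g a b a' b' : G), g * a * g⁻¹ = a' → g * b * g⁻¹ = b' → IsConj (a * b) (a' * b') := by
    intro g a b a' b' h1 h2
    refine isConj_iff.2 ⟨g, ?_⟩
    rw [← h1, ← h2]; group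
  have cinv : ∀ (g a b : G), g * a * g⁻¹ = b → g * a⁻¹ * g⁻¹ = b⁻¹ := by
    intro g a b h1; rw [← h1]; group
  have z1 : IsConj z (x⁻¹ * y) := by rw [hz]; exact cj g1 x y _ _ g1x g1y
  have z2 : IsConj z (x * y⁻¹) := by rw [hz]; exact cj g2 x y _ _ g2x g2y
  have z3 : IsConj z (x⁻¹ * y⁻¹) := z1.trans (cj g2 x⁻¹ y _ _ (cinv _ _ _ g2x) g2y)
  have rz : IsConj z z⁻¹ := by
    rw [hz]; rw [hz] at z3
    have e : (x * y)⁻¹ = x⁻¹ * y⁻¹ := by
      rw [mul_inv_rev]
      exact h.comm _ (inv_mem c.hy) _ (inv_mem c.hx)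
    rw [e]; exact z3
  have hxy : ¬ IsConj x y := by
    intro hc
    rcases fx y c.hy hc with h1 | h1
    · exact c.n1 h1
    · exact c.n2 h1
  have hxz : ¬ IsConj x z := by
    intro hc
    rcases fx z hzT hc with h1 | h1
    · rw [hz] at h1; exact c.hy1 (mul_eq_left.1 h1)
    · rw [hz] at h1
      have : y = x := by
        rw [← mul_left_cancel_iff (a := x), h1, xx]
      exact c.n1 this
  have hyz : ¬ IsConj y z := by
    intro hc
    rcases fy z hzT hc with h1 | h1
    · rw [hz] at h1; exact c.hx1 (mul_eq_right.1 h1)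
    · rw [hz] at h1
      have : x = y := by
        rw [← mul_right_cancel_iff (a := y), h1, yy]
      exact c.n1 this.symm
  -- the classes in T
  let Fo : G → Finset G := fun u => Finset.univ.filter (fun w => w ∈ T ∧ IsConj u w)
  have mF : ∀ u w, w ∈ Fo u ↔ w ∈ T ∧ IsConj u w := fun u w => by simp [Fo]
  have cF : ∀ u, (Fo u).card = Nat.card {w : G // w ∈ T ∧ IsConj u w} := fun u => by
    rw [Nat.card_eq_fintype_card, Fintype.card_subtype]
  have Fx : Fo x = {x, x⁻¹} := by
    ext w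
    rw [mF, Finset.mem_insert, Finset.mem_singleton]
    constructor
    · rintro ⟨h1, h2⟩; exact fx w h1 h2
    · rintro (rfl | rfl)
      · exact ⟨c.hx, IsConj.refl _⟩
      · exact ⟨inv_mem c.hx, rx⟩
  have Fy : Fo y = {y, y⁻¹} := by
    ext w
    rw [mF, Finset.mem_insert, Finset.mem_singleton]
    constructor
    · rintro ⟨h1, h2⟩; exact fy w h1 h2
    · rintro (rfl | rfl)
      · exact ⟨c.hy, IsConj.refl _⟩
      · exact ⟨inv_mem c.hy, ry⟩
  have cx2 : (Fo x).card = 2 := by rw [Fx, Finset.card_pair nx]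
  have cy2 : (Fo y).card = 2 := by rw [Fy, Finset.card_pair ny]
  have four : ({x * y, x⁻¹ * y, x * y⁻¹, x⁻¹ * y⁻¹} : Finset G) ⊆ Fo z := by
    intro w hw
    simp only [Finset.mem_insert, Finset.mem_singleton] at hw
    rw [mF]
    rcases hw with rfl | rfl | rfl | rfl
    · rw [← hz]; exact ⟨hzT, IsConj.refl _⟩
    · exact ⟨mul_mem (inv_mem c.hx) c.hy, z1⟩
    · exact ⟨mul_mem c.hx (inv_mem c.hy), z2⟩
    · exact ⟨mul_mem (inv_mem c.hx) (inv_mem c.hy), z3⟩
  have four' : ({x * y, x⁻¹ * y, x * y⁻¹, x⁻¹ * y⁻¹} : Finset G).card = 4 := by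
    have d1 : x * y ≠ x⁻¹ * y := fun e => nx (mul_right_cancel e)
    have d2 : x * y ≠ x * y⁻¹ := fun e => ny (mul_left_cancel e)
    have d3 : x * y ≠ x⁻¹ * y⁻¹ := by
      intro e
      have e1 : x * x * (y * y) = 1 := by
        have : x * (x * y) * y = x * (x⁻¹ * y⁻¹) * y := by rw [e]
        calc x * x * (y * y) = x * (x * y) * y := by group
          _ = _ := by rw [this]; group
      rw [xx, yy] at e1
      have : y = x⁻¹ := by
        have := mul_eq_one_iff_eq_inv.1 e1
        rw [inv_inv] at this; exact this.symm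
      exact c.n2 this
    have d4 : x⁻¹ * y ≠ x * y⁻¹ := by
      intro e
      have e1 : y * y = x * x := by
        have : x * (x⁻¹ * y) * y = x * (x * y⁻¹) * y := by rw [e]
        calc y * y = x * (x⁻¹ * y) * y := by group
          _ = _ := by rw [this]; group
      rw [xx, yy] at e1
      exact c.n1 (inv_injective e1)
    have d5 : x⁻¹ * y ≠ x⁻¹ * y⁻¹ := fun e => ny (mul_left_cancel e)
    have d6 : x * y⁻¹ ≠ x⁻¹ * y⁻¹ := fun e => nx (mul_right_cancel e)
    rw [Finset.card_insert_of_notMem, Finset.card_insert_of_notMem, Finset.card_insert_of_notMem,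
      Finset.card_singleton]
    · simp only [Finset.mem_singleton]; exact d6
    · simp only [Finset.mem_insert, Finset.mem_singleton, not_or]; exact ⟨d4, d5⟩
    · simp only [Finset.mem_insert, Finset.mem_singleton, not_or]; exact ⟨d1, d2, d3⟩
  have hdis : ∀ {u w : G}, ¬ IsConj u w → Disjoint (Fo u) (Fo w) := by
    intro u w huw
    rw [Finset.disjoint_left]
    intro v hv hv'
    exact huw (((mF _ _).1 hv).2.trans ((mF _ _).1 hv').2.symm)
  have hone : (1 : G) ∉ Fo x ∪ (Fo y ∪ Fo z) := by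
    intro hm
    rw [Finset.mem_union, Finset.mem_union] at hm
    rcases hm with hm | hm | hm
    · exact c.hx1 (isConj_one_right.1 ((mF _ _).1 hm).2.symm)
    · exact c.hy1 (isConj_one_right.1 ((mF _ _).1 hm).2.symm)
    · exact hz1 (isConj_one_right.1 ((mF _ _).1 hm).2.symm)
  have hdyz := hdis hyz
  have hdx : Disjoint (Fo x) (Fo y ∪ Fo z) := by
    rw [Finset.disjoint_union_right]; exact ⟨hdis hxy, hdis hxz⟩
  have hsub : insert 1 (Fo x ∪ (Fo y ∪ Fo z)) ⊆ Finset.univ.filter (· ∈ T) := by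
    intro w hw
    rw [Finset.mem_filter]
    refine ⟨Finset.mem_univ _, ?_⟩
    rw [Finset.mem_insert, Finset.mem_union, Finset.mem_union] at hw
    rcases hw with rfl | hw | hw | hw
    · exact one_mem T
    · exact ((mF _ _).1 hw).1
    · exact ((mF _ _).1 hw).1
    · exact ((mF _ _).1 hw).1
  have hcT : (Finset.univ.filter (· ∈ T)).card = 9 := by
    rw [← h.h9, Nat.card_eq_fintype_card, Fintype.card_subtype]
  have hcard : (insert 1 (Fo x ∪ (Fo y ∪ Fo z))).card = 1 + (2 + (2 + (Fo z).card)) := by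
    rw [Finset.card_insert_of_notMem hone, Finset.card_union_of_disjoint hdx,
      Finset.card_union_of_disjoint hdyz, cx2, cy2]
    ring
  have hle := Finset.card_le_card hsub
  have hge := Finset.card_le_card four
  rw [hcard, hcT] at hle
  rw [four'] at hge
  have cz4 : (Fo z).card = 4 := by omega
  have heq : insert 1 (Fo x ∪ (Fo y ∪ Fo z)) = Finset.univ.filter (· ∈ T) :=
    Finset.eq_of_subset_of_card_le hsub (by rw [hcard, hcT, cz4])
  have hsum : ∀ f : G → ℂ, (∀ a b, IsConj a b → f a = f b) → ∑ s : T, f s = f 1 + 2 * f x + 2 * f y + 4 * f z := by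
    intro f hf
    have h1 : ∑ s : T, f s = ∑ s ∈ Finset.univ.filter (· ∈ T), f s := by
      rw [← Finset.sum_subtype_eq_sum_filter]
      simp
    have hF : ∀ u, ∑ w ∈ Fo u, f w = (Fo u).card * f u := by
      intro u
      rw [Finset.sum_congr rfl (g := fun _ => f u) (fun w hw => (hf _ _ ((mF _ _).1 hw).2).symm), Finset.sum_const,
        nsmul_eq_mul]
    rw [h1, ← heq, Finset.sum_insert hone, Finset.sum_union hdx, Finset.sum_union hdyz, hF, hF, hF, cx2, cy2, cz4]
    push_cast; ring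
  -- centralizers
  have o1 := h.orb c.hx c.hx1
  have o2 := h.orb c.hy c.hy1
  have o3 := h.orb hzT hz1
  rw [← cF, cx2, hN] at o1
  rw [← cF, cy2, hN] at o2
  rw [← cF, cz4, hN] at o3
  have o3' : ∀ {u w : G}, IsConj u w → orderOf u = 3 → orderOf w = 3 := by
    intro u w hc hu
    obtain ⟨g, hg⟩ := isConj_iff.1 hc
    rw [← hg, ← hu]
    exact (MulAut.conj g).orderOf_eq u
  have ox := h.order c.hx c.hx1
  have oy := h.order c.hy c.hy1
  have oz := h.order hzT hz1
  have pw : ∀ {w : G}, orderOf w = 3 → w ^ 3 = 1 := fun {w} hw => by rw [← hw]; exact pow_orderOf_eq_one w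
  -- the solutions
  have sol : ∀ {u v k w : G}, k ∈ T → k ≠ 1 → IsConj k k⁻¹ → orderOf u = 3 → orderOf v = 3 → ¬ IsConj u k →
      IsConj u w → IsConj v (w⁻¹ * k) → w ∈ T := by
    intro u v k w hk hk1 hkr hu hv huk huw hvw
    refine h.sol hk hk1 (o3' huw hu) (pw (o3' hvw hv)) ?_
    intro hc
    exact huk (huw.trans (hkr.trans hc).symm)
  have key := V9b.main T ox oy oz (by omega) (by omega) (by omega) rx ry rz hxy hxz hyz h.h9 hsum
    (by
      intro w h1 h2
      have hw := sol c.hy c.hy1 ry ox ox hxy h1 h2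
      have e : y = w * (w⁻¹ * y) := by group
      rcases fx w hw h1 with h3 | h3 <;> rcases fx _ (mul_mem (inv_mem hw) c.hy) h2 with h4 | h4 <;>
        rw [h4, h3] at e
      · rw [xx] at e; exact c.n2 e
      · exact c.hy1 (by rw [e]; group)
      · exact c.hy1 (by rw [e]; group)
      · rw [xx'] at e; exact c.n1 e)
    (by
      intro w h1 h2
      have hw := sol c.hx c.hx1 rx oy oy (fun hc => hxy hc.symm) h1 h2
      have e : x = w * (w⁻¹ * x) := by group
      rcases fy w hw h1 with h3 | h3 <;> rcases fy _ (mul_mem (inv_mem hw) c.hx) h2 with h4 | h4 <;>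
        rw [h4, h3] at e
      · rw [yy] at e; exact c.n2 (by rw [e, inv_inv])
      · exact c.hx1 (by rw [e]; group)
      · exact c.hx1 (by rw [e]; group)
      · rw [yy'] at e; exact c.n1 e.symm)
    (by
      intro w h1 h2
      have hw := sol hzT hz1 rz ox ox hxz h1 h2
      have e : x * y = w * (w⁻¹ * z) := by rw [hz]; group
      rcases fx w hw h1 with h3 | h3 <;> rcases fx _ (mul_mem (inv_mem hw) hzT) h2 with h4 | h4 <;>
        rw [h4, h3] at e
      · exact c.n1 (mul_left_cancel e)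
      · exact c.n2 (mul_left_cancel e)
      · exact c.n2 (eq_inv_of_mul_eq_one_right (by rw [e]; group))
      · rw [xx'] at e; exact c.hy1 (mul_eq_left.1 e))
    (by
      intro w h1 h2
      have hw := sol hzT hz1 rz oy oy hyz h1 h2
      have e : x * y = w * (w⁻¹ * z) := by rw [hz]; group
      rcases fy w hw h1 with h3 | h3 <;> rcases fy _ (mul_mem (inv_mem hw) hzT) h2 with h4 | h4 <;>
        rw [h4, h3] at e
      · exact c.n1 (mul_right_cancel e).symm
      · exact c.n2 (eq_inv_of_mul_eq_one_right (by rw [e]; group))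
      · exact c.n2 (eq_inv_of_mul_eq_one_right (by rw [e]; group))
      · rw [yy'] at e; exact c.hx1 (mul_eq_right.1 e))
  have hone' : (Finset.univ.filter (fun w : G => IsConj x w ∧ IsConj y (w⁻¹ * z))) = {x} := by
    ext w
    rw [Finset.mem_filter, Finset.mem_singleton]
    constructor
    · rintro ⟨-, h1, h2⟩
      have hw := sol hzT hz1 rz ox oy hxz h1 h2
      rcases fx w hw h1 with h3 | h3
      · exact h3
      · exfalso
        rw [h3, inv_inv, hz, ← mul_assoc, xx] at h2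
        rcases fy _ (mul_mem (inv_mem c.hx) c.hy) h2 with h4 | h4
        · exact c.hx1 (inv_eq_one.1 (mul_eq_right.1 h4))
        · have : y = x * y⁻¹ := by rw [← h4]; group
          have e5 : y * y = x := by nth_rw 1 [this]; group
          rw [yy] at e5
          exact c.n2 (by rw [← e5, inv_inv])
    · rintro rfl
      refine ⟨Finset.mem_univ _, IsConj.refl _, ?_⟩
      rw [hz, inv_mul_cancel_left]
  rw [hone', Finset.card_singleton] at key
  omega

end Cfsg.Agent.H19.V9c
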