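import Mathlib
import Cfsg.Agent.H19_V9d

/-! Sylow 3-subgroup of order nine with Klein four automizer: coordinates. -/

set_option autoImplicit false
namespace Cfsg.Agent.H19.V9c
open Subgroup

theorem inSub {G : Type*} [Group G] [Finite G] {T K : Subgroup G} (h : Vx T) (hK : K ≤ T) {u x : G} (hu : u ∈ T)
    (huK : u ∉ K) (hx : x ∈ K) (hx1 : x ≠ 1) : ∀ s ∈ K, s = 1 ∨ s = x ∨ s = x⁻¹ := by
  intro s hs
  have h1 : Nat.card K ∣ 9 := by rw [← h.h9]; exact Subgroup.card_dvd_of_le hK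
  have h2 : Nat.card K ≠ 9 := by
    intro h9
    have : K = T := Cfsg.Agent.H1.Basic.eq_of_le_of_card_ge' hK (by rw [h9, h.h9])
    exact huK (this ▸ hu)
  have h3 : Nat.card K ≤ 3 := by
    have : Nat.card K ≤ 9 := Nat.le_of_dvd (by norm_num) h1
    by_contra h4
    have h5 : Nat.card K < 9 := by omega
    have h6 : 3 < Nat.card K := by omega
    interval_cases Nat.card K <;> omega
  have hz : Subgroup.zpowers x = K := by
    apply Cfsg.Agent.H1.Basic.eq_of_le_of_card_ge'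
    · rw [Subgroup.zpowers_le]; exact hx
    · rw [Nat.card_zpowers, h.order (hK hx) hx1]; exact h3
  rw [← hz, Subgroup.mem_zpowers_iff] at hs
  obtain ⟨k, rfl⟩ := hs
  have e : x ^ k = x ^ (k % 3) := by
    have := zpow_mod_orderOf x k
    rw [h.order (hK hx) hx1] at this
    exact this.symm
  have h4 : k % 3 = 0 ∨ k % 3 = 1 ∨ k % 3 = 2 := by omega
  rw [e]
  rcases h4 with h5 | h5 | h5 <;> rw [h5]
  · left; simp
  · right; left; simp
  · right; right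
    rw [eq_inv_iff_mul_eq_one]
    have := h.h3 x (hK hx)
    have e2 : x ^ (2 : ℤ) * x = x ^ 3 := by
      rw [show (2 : ℤ) = ((2 : ℕ) : ℤ) by rfl, zpow_natCast, ← pow_succ]
    rw [e2, this]

/-- the general configuration: `n` with `n² ∈ T`, neither centralizing nor inverting -/
theorem coords {G : Type*} [Group G] [Finite G] {T : Subgroup G} (h : Vx T) {n : G}
    (hn : n ∈ Subgroup.normalizer (T : Set G)) (hnT : n ∉ T) (hn2 : n * n ∈ T)
    (hinv : ¬ ∀ s ∈ T, n * s * n⁻¹ = s⁻¹)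
    (hcomm : ∀ m ∈ Subgroup.normalizer (T : Set G), (n * m)⁻¹ * (m * n) ∈ T)
    (hm : ∃ m ∈ Subgroup.normalizer (T : Set G), m ∉ T ∧ n⁻¹ * m ∉ T) :
    ∃ x y : G, Co T x y := by
  have nT : ∀ g ∈ Subgroup.normalizer (T : Set G), ∀ s ∈ T, g * s * g⁻¹ ∈ T := fun g hg s hs =>
    (Subgroup.mem_normalizer_iff.1 hg s).1 hs
  have inv2 : ∀ s ∈ T, n * (n * s * n⁻¹) * n⁻¹ = s := by
    intro s hs
    have h1 := h.comm _ hn2 s hs
    calc n * (n * s * n⁻¹) * n⁻¹ = (n * n * s) * (n * n)⁻¹ := by group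
      _ = s := by rw [h1]; group
  obtain ⟨s1, hs1, hs1n⟩ : ∃ s ∈ T, n * s ≠ s * n := by
    by_contra hcon
    push Not at hcon
    exact hnT (h.cen n hcon)
  obtain ⟨s0, hs0, hs0n⟩ : ∃ s ∈ T, n * s * n⁻¹ ≠ s⁻¹ := by
    by_contra hcon
    push Not at hcon
    exact hinv hcon
  obtain ⟨x, hx⟩ : ∃ x, x = s1 * (n * s1 * n⁻¹)⁻¹ := ⟨_, rfl⟩
  obtain ⟨y, hy⟩ : ∃ y, y = s0 * (n * s0 * n⁻¹) := ⟨_, rfl⟩
  have hxT : x ∈ T := by rw [hx]; exact mul_mem hs1 (inv_mem (nT n hn _ hs1))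
  have hyT : y ∈ T := by rw [hy]; exact mul_mem hs0 (nT n hn _ hs0)
  have hx1 : x ≠ 1 := by
    intro e
    rw [hx, mul_inv_eq_one] at e
    exact hs1n (by nth_rw 2 [e]; group)
  have hy1 : y ≠ 1 := by
    intro e
    rw [hy] at e
    exact hs0n (eq_inv_of_mul_eq_one_right e)
  have nx : n * x * n⁻¹ = x⁻¹ := by
    have e1 : n * x * n⁻¹ = (n * s1 * n⁻¹) * (n * (n * s1 * n⁻¹) * n⁻¹)⁻¹ := by rw [hx]; group
    rw [e1, inv2 s1 hs1, hx]; group
  have ny : n * y * n⁻¹ = y := by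
    have e1 : n * y * n⁻¹ = (n * s0 * n⁻¹) * (n * (n * s0 * n⁻¹) * n⁻¹) := by rw [hy]; group
    rw [e1, inv2 s0 hs0, hy]
    exact h.comm _ (nT n hn _ hs0) _ hs0
  have xne : x ≠ x⁻¹ := by
    intro e
    have h1 : x * x = 1 := by nth_rw 2 [e]; exact mul_inv_cancel x
    have h2 := h.h3 x hxT
    rw [pow_succ, pow_two, h1, one_mul] at h2
    exact hx1 h2
  have n1 : y ≠ x := by
    intro e
    rw [e] at ny
    rw [ny] at nx
    exact xne nx
  have n2 : y ≠ x⁻¹ := by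
    intro e
    have h1 : n * x⁻¹ * n⁻¹ = x := by
      have : n * x⁻¹ * n⁻¹ = (n * x * n⁻¹)⁻¹ := by group
      rw [this, nx, inv_inv]
    rw [e] at ny
    rw [ny] at h1
    exact xne h1.symm
  -- the two eigenspaces
  let Km : Subgroup G :=
    { carrier := {s | s ∈ T ∧ n * s * n⁻¹ = s⁻¹}
      one_mem' := ⟨one_mem T, by simp⟩
      mul_mem' := by
        rintro a b ⟨ha, ha'⟩ ⟨hb, hb'⟩
        refine ⟨mul_mem ha hb, ?_⟩
        have e : n * (a * b) * n⁻¹ = (n * a * n⁻¹) * (n * b * n⁻¹) := by group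
        rw [e, ha', hb', mul_inv_rev]
        exact h.comm _ (inv_mem ha) _ (inv_mem hb)
      inv_mem' := by
        rintro a ⟨ha, ha'⟩
        refine ⟨inv_mem ha, ?_⟩
        have e : n * a⁻¹ * n⁻¹ = (n * a * n⁻¹)⁻¹ := by group
        rw [e, ha'] }
  let Kp : Subgroup G := T ⊓ Subgroup.centralizer ({n} : Set G)
  have mKm : ∀ s, s ∈ Km ↔ s ∈ T ∧ n * s * n⁻¹ = s⁻¹ := fun s => Iff.rfl
  have mKp : ∀ s, s ∈ Kp ↔ s ∈ T ∧ n * s * n⁻¹ = s := by
    intro s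
    rw [Subgroup.mem_inf, Subgroup.mem_centralizer_singleton_iff, mul_inv_eq_iff_eq_mul]
    constructor
    · rintro ⟨h1, h2⟩; exact ⟨h1, h2.symm⟩
    · rintro ⟨h1, h2⟩; exact ⟨h1, h2.symm⟩
  have yne : y ≠ y⁻¹ := by
    intro e
    have h1 : y * y = 1 := by nth_rw 2 [e]; exact mul_inv_cancel y
    have h2 := h.h3 y hyT
    rw [pow_succ, pow_two, h1, one_mul] at h2
    exact hy1 h2
  have rm := inSub h (K := Km) (fun s hs => ((mKm s).1 hs).1) hyT
    (fun hc => yne (ny.symm.trans ((mKm y).1 hc).2)) ((mKm x).2 ⟨hxT, nx⟩) hx1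
  have rp := inSub h (K := Kp) (fun s hs => ((mKp s).1 hs).1) hxT
    (fun hc => xne ((nx.symm.trans ((mKp x).1 hc).2).symm)) ((mKp y).2 ⟨hyT, ny⟩) hy1
  have comm2 : ∀ g ∈ Subgroup.normalizer (T : Set G), ∀ s ∈ T, n * (g * s * g⁻¹) * n⁻¹ = g * (n * s * n⁻¹) * g⁻¹ := by
    intro g hg s hs
    have h1 := hcomm g hg
    have h2 := h.comm _ h1 s hs
    have h3 : g * (n * s * n⁻¹) * g⁻¹ = (n * g) * ((n * g)⁻¹ * (g * n) * s) * ((n * g)⁻¹ * (g * n))⁻¹ * (n * g)⁻¹ := by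
      group
    rw [h3, h2]
    group
  have cx : ∀ g ∈ Subgroup.normalizer (T : Set G), g * x * g⁻¹ = x ∨ g * x * g⁻¹ = x⁻¹ := by
    intro g hg
    have h1 : g * x * g⁻¹ ∈ Km := by
      rw [mKm]
      refine ⟨nT g hg x hxT, ?_⟩
      rw [comm2 g hg x hxT, nx]; group
    rcases rm _ h1 with h2 | h2 | h2
    · exact absurd (by simpa using h2) hx1
    · left; exact h2
    · right; exact h2
  have cy : ∀ g ∈ Subgroup.normalizer (T : Set G), g * y * g⁻¹ = y ∨ g * y * g⁻¹ = y⁻¹ := by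
    intro g hg
    have h1 : g * y * g⁻¹ ∈ Kp := by
      rw [mKp]
      refine ⟨nT g hg y hyT, ?_⟩
      rw [comm2 g hg y hyT, ny]
    rcases rp _ h1 with h2 | h2 | h2
    · exact absurd (by simpa using h2) hy1
    · left; exact h2
    · right; exact h2
  have gen : ∀ g, g * x * g⁻¹ = x → g * y * g⁻¹ = y → g ∈ T := by
    intro g hgx hgy
    apply h.cen
    intro s hs
    by_contra hcon
    have hx' : x ∈ T ⊓ Subgroup.centralizer ({g} : Set G) := by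
      rw [Subgroup.mem_inf, Subgroup.mem_centralizer_singleton_iff]
      exact ⟨hxT, (mul_inv_eq_iff_eq_mul.1 hgx).symm⟩
    have hy' : y ∈ T ⊓ Subgroup.centralizer ({g} : Set G) := by
      rw [Subgroup.mem_inf, Subgroup.mem_centralizer_singleton_iff]
      exact ⟨hyT, (mul_inv_eq_iff_eq_mul.1 hgy).symm⟩
    have := inSub h (K := T ⊓ Subgroup.centralizer ({g} : Set G)) inf_le_left hs (by
      rw [Subgroup.mem_inf, Subgroup.mem_centralizer_singleton_iff]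
      rintro ⟨_, h2⟩
      exact hcon h2.symm) hx' hx1 y hy'
    rcases this with h1 | h1 | h1
    · exact hy1 h1
    · exact n1 h1
    · exact n2 h1
  refine ⟨x, y, hxT, hyT, hx1, hy1, n1, n2, cx, cy, ⟨n, nx, ny⟩, ?_⟩
  obtain ⟨m, hmN, hmT, hmn⟩ := hm
  have nx' : n * x⁻¹ * n⁻¹ = x := by
    have : n * x⁻¹ * n⁻¹ = (n * x * n⁻¹)⁻¹ := by group
    rw [this, nx, inv_inv]
  have ny' : n * y⁻¹ * n⁻¹ = y⁻¹ := by
    have : n * y⁻¹ * n⁻¹ = (n * y * n⁻¹)⁻¹ := by group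
    rw [this, ny]
  rcases cx m hmN with h1 | h1 <;> rcases cy m hmN with h2 | h2
  · exact absurd (gen m h1 h2) hmT
  · exact ⟨m, h1, h2⟩
  · refine absurd (gen (n⁻¹ * m) ?_ ?_) hmn
    · have : n⁻¹ * m * x * (n⁻¹ * m)⁻¹ = n⁻¹ * (m * x * m⁻¹) * n := by group
      rw [this, h1, ← nx]; group
    · have : n⁻¹ * m * y * (n⁻¹ * m)⁻¹ = n⁻¹ * (m * y * m⁻¹) * n := by group
      rw [this, h2]
      nth_rw 1 [← ny]; group
  · refine ⟨n * m, ?_, ?_⟩
    · have : n * m * x * (n * m)⁻¹ = n * (m * x * m⁻¹) * n⁻¹ := by group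
      rw [this, h1, nx']
    · have : n * m * y * (n * m)⁻¹ = n * (m * y * m⁻¹) * n⁻¹ := by group
      rw [this, h2, ny']

end Cfsg.Agent.H19.V9c
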