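import Mathlib
import Cfsg.Agent.H19_V9e

/-! Sylow 3-subgroup of order nine with Klein four automizer. -/

set_option autoImplicit false
namespace Cfsg.Agent.H19.V9c
open Subgroup

theorem klein {G : Type*} [Group G] [Finite G] {T : Subgroup G} (h : Vx T) (N : Subgroup G)
    (hN : N = Subgroup.normalizer (T : Set G)) [hn : (T.subgroupOf N).Normal]
    (hK : IsKleinFour (N ⧸ T.subgroupOf N)) : Nat.card N = 36 ∧ ∃ x y : G, Co T x y := by
  classical
  have hTN : T ≤ N := by rw [hN]; exact Subgroup.le_normalizer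
  have mk1 : ∀ g : N, (QuotientGroup.mk g : N ⧸ T.subgroupOf N) = 1 ↔ (g : G) ∈ T := by
    intro g
    rw [QuotientGroup.eq_one_iff, Subgroup.mem_subgroupOf]
  have hcard : Nat.card N = 36 := by
    have h1 := Subgroup.card_eq_card_quotient_mul_card_subgroup (T.subgroupOf N)
    rw [hK.card_four, Cfsg.Agent.H1.Basic.card_subgroupOf hTN, h.h9] at h1
    exact h1
  refine ⟨hcard, ?_⟩
  letI : Fintype (N ⧸ T.subgroupOf N) := Fintype.ofFinite _
  have exq : ∀ a : N ⧸ T.subgroupOf N, ∃ b, b ≠ 1 ∧ b ≠ a := by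
    intro a
    by_contra hcon
    push Not at hcon
    have hsub : (Finset.univ : Finset (N ⧸ T.subgroupOf N)) ⊆ {1, a} := by
      intro b _
      rw [Finset.mem_insert, Finset.mem_singleton]
      by_cases hb : b = 1
      · left; exact hb
      · right; exact hcon b hb
    have h1 := Finset.card_le_card hsub
    rw [Finset.card_univ, ← Nat.card_eq_fintype_card, hK.card_four] at h1
    have h2 := Finset.card_le_two (a := (1 : N ⧸ T.subgroupOf N)) (b := a)
    omega
  have sq : ∀ g : N, (g : G) * g ∈ T := by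
    intro g
    have h1 := (mk1 (g * g)).1 (by
      rw [QuotientGroup.mk_mul]
      exact @IsKleinFour.mul_self _ _ hK _)
    simpa using h1
  have cm : ∀ g k : N, ((g : G) * k)⁻¹ * (k * g) ∈ T := by
    intro g k
    have hc : ∀ a b : N ⧸ T.subgroupOf N, a * b = b * a := by
      intro a b
      have h1 := @IsKleinFour.mul_self _ _ hK (a * b)
      have h2 := @IsKleinFour.mul_self _ _ hK a
      have h3 := @IsKleinFour.mul_self _ _ hK b
      calc a * b = a * b * 1 := by rw [mul_one]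
        _ = a * b * ((b * b) * (a * a)) := by rw [h2, h3, one_mul]
        _ = (a * b) * b * (b * a) * a := by group
        _ = b * a := by
          have h4 : a * b * b * (b * a) * a = a * (b * b) * b * (a * a) := by group
          rw [h4, h2, h3, mul_one, mul_one]
          have : a * b = (a * b)⁻¹ := by rw [eq_inv_iff_mul_eq_one, h1]
          rw [this, mul_inv_rev]
          have e1 : b⁻¹ = b := by rw [inv_eq_iff_mul_eq_one, h3]
          have e2 : a⁻¹ = a := by rw [inv_eq_iff_mul_eq_one, h2]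
          rw [e1, e2]
    have h1 := (mk1 ((g * k)⁻¹ * (k * g))).1 (by
      rw [QuotientGroup.mk_mul, QuotientGroup.mk_inv, inv_mul_eq_one, QuotientGroup.mk_mul, QuotientGroup.mk_mul]
      exact hc _ _)
    simpa using h1
  have build : ∀ n : N, (n : G) ∉ T → (¬ ∀ s ∈ T, (n : G) * s * (n : G)⁻¹ = s⁻¹) → ∃ x y : G, Co T x y := by
    intro n hnT hinv
    refine coords h (n := n) (by rw [← hN]; exact n.2) hnT (sq n) hinv ?_ ?_
    · intro m hm
      exact cm n ⟨m, by rw [hN]; exact hm⟩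
    · obtain ⟨b, hb1, hb2⟩ := exq (QuotientGroup.mk n)
      obtain ⟨m, rfl⟩ := QuotientGroup.mk_surjective b
      refine ⟨m, by rw [← hN]; exact m.2, fun hc => hb1 ((mk1 m).2 hc), fun hc => hb2 ?_⟩
      have h1 := (mk1 (n⁻¹ * m)).2 (by simpa using hc)
      rw [QuotientGroup.mk_mul, QuotientGroup.mk_inv, inv_mul_eq_one] at h1
      exact h1.symm
  obtain ⟨b1, hb1, -⟩ := exq 1
  obtain ⟨m1, rfl⟩ := QuotientGroup.mk_surjective b1
  have hm1 : (m1 : G) ∉ T := fun hc => hb1 ((mk1 m1).2 hc)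
  by_cases hi1 : ∀ s ∈ T, (m1 : G) * s * (m1 : G)⁻¹ = s⁻¹
  · obtain ⟨b2, hb2, hb12⟩ := exq (QuotientGroup.mk m1)
    obtain ⟨m2, rfl⟩ := QuotientGroup.mk_surjective b2
    have hm2 : (m2 : G) ∉ T := fun hc => hb2 ((mk1 m2).2 hc)
    refine build m2 hm2 ?_
    intro hi2
    apply hb12
    have h1 : (m1 : G)⁻¹ * m2 ∈ T := by
      apply h.cen
      intro s hs
      have e1 : (m1 : G)⁻¹ * s⁻¹ * m1 = s := by
        have := hi1 s hs
        rw [← this]; group
      have e2 := hi2 s hs
      have e3 : (m1 : G)⁻¹ * m2 * s * ((m1 : G)⁻¹ * m2)⁻¹ = s := by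
        have : (m1 : G)⁻¹ * m2 * s * ((m1 : G)⁻¹ * m2)⁻¹ = (m1 : G)⁻¹ * (m2 * s * (m2 : G)⁻¹) * m1 := by group
        rw [this, e2, e1]
      exact mul_inv_eq_iff_eq_mul.1 e3
    have h2 := (mk1 (m1⁻¹ * m2)).2 (by simpa using h1)
    rw [QuotientGroup.mk_mul, QuotientGroup.mk_inv, inv_mul_eq_one] at h2
    exact h2.symm
  · exact build m1 hm1 hi1

end Cfsg.Agent.H19.V9c
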