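import Mathlib
import Cfsg.Agent.H1_Basic
import Cfsg.Agent.H1_Coprime

/-! An involution acting on an elementary abelian group of order 16 in a group of order 160. -/

set_option autoImplicit false
namespace Cfsg.Agent.H19.X320
open Subgroup
open scoped Pointwise

theorem pow2 {n : ℕ} (h : n ∣ 16) : n = 1 ∨ n = 2 ∨ n = 4 ∨ n = 8 ∨ n = 16 := by
  have : n ≤ 16 := Nat.le_of_dvd (by norm_num) h
  interval_cases n <;> simp at h ⊢ <;> omega

variable {X : Type*} [Group X] [Finite X] {W : Subgroup X}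

theorem fixed_mod5 {f : X} (hf : f ^ 5 = 1) (E : Subgroup X) (hE : ∀ e ∈ E, f * e * f⁻¹ ∈ E) :
    Nat.card E % 5 = Nat.card (E ⊓ Subgroup.centralizer ({f} : Set X) : Subgroup X) % 5 := by
  classical
  haveI : Fact (Nat.Prime 5) := ⟨by norm_num⟩
  letI : Fintype X := Fintype.ofFinite X
  have hE' : ∀ k ∈ Subgroup.zpowers f, ∀ e ∈ E, k * e * k⁻¹ ∈ E := by
    intro k hk e he
    have hN : f ∈ Subgroup.normalizer (E : Set X) := by
      have hle : MulAut.conj f • E ≤ E := by
        intro y hy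
        rw [Cfsg.Agent.H1.Basic.mem_conj] at hy
        have := hE _ hy
        have e1 : f * (f⁻¹ * y * f) * f⁻¹ = y := by group
        rwa [e1] at this
      exact Cfsg.Agent.H1.Basic.conj_eq_iff_mem_normalizer.1
        (Cfsg.Agent.H1.Basic.eq_of_le_of_card_ge' hle (by rw [Cfsg.Agent.H1.Basic.card_conj]))
    have hk' : k ∈ Subgroup.normalizer (E : Set X) := (Subgroup.zpowers_le.2 hN) hk
    exact (Subgroup.mem_normalizer_iff.1 hk' e).1 he
  letI : MulAction (Subgroup.zpowers f) E :=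
    { smul := fun k e => ⟨k * e * (k : X)⁻¹, hE' k k.2 e e.2⟩
      one_smul := fun e => Subtype.ext (by show (1 : X) * e * (1 : X)⁻¹ = e; simp)
      mul_smul := fun a b e => Subtype.ext (by
        show (a * b : X) * e * (a * b : X)⁻¹ = a * (b * e * (b : X)⁻¹) * (a : X)⁻¹
        group) }
  have hsm : ∀ (k : Subgroup.zpowers f) (e : E), ((k • e : E) : X) = k * e * (k : X)⁻¹ := fun _ _ => rfl
  have hp : IsPGroup 5 (Subgroup.zpowers f) := by
    rw [IsPGroup.iff_card, Nat.card_zpowers]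
    exact (Nat.dvd_prime_pow (by norm_num)).1 (by rw [pow_one]; exact orderOf_dvd_of_pow_eq_one hf : orderOf f ∣ 5 ^ 1)
      |>.imp (fun _ h => h.2)
  have h1 := hp.card_modEq_card_fixedPoints E
  have h2 : Nat.card (MulAction.fixedPoints (Subgroup.zpowers f) E) =
      Nat.card (E ⊓ Subgroup.centralizer ({f} : Set X) : Subgroup X) := by
    apply Nat.card_congr
    refine ⟨fun e => ⟨e.1.1, Subgroup.mem_inf.2 ⟨e.1.2, ?_⟩⟩, fun e => ⟨⟨e.1, (Subgroup.mem_inf.1 e.2).1⟩, ?_⟩, ?_, ?_⟩
    · have := e.2 ⟨f, Subgroup.mem_zpowers f⟩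
      have h3 := congrArg Subtype.val this
      rw [hsm] at h3
      rw [Subgroup.mem_centralizer_singleton_iff]
      exact (mul_inv_eq_iff_eq_mul.1 h3).symm
    · rintro ⟨k, hk⟩
      apply Subtype.ext
      rw [hsm]
      have h3 : f ∈ Subgroup.centralizer ({e.1} : Set X) := by
        rw [Subgroup.mem_centralizer_singleton_iff]
        exact ((Subgroup.mem_centralizer_singleton_iff.1 (Subgroup.mem_inf.1 e.2).2)).symm
      have h4 : k ∈ Subgroup.centralizer ({e.1} : Set X) := (Subgroup.zpowers_le.2 h3) hk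
      show k * e.1 * k⁻¹ = e.1
      exact mul_inv_eq_iff_eq_mul.2 (Subgroup.mem_centralizer_singleton_iff.1 h4)
    · intro e; rfl
    · intro e; rfl
  rw [h2] at h1
  exact h1

theorem main (hX : Nat.card X = 160) (hWn : W.Normal) (hW : Nat.card W = 16)
    (hWc : ∀ a ∈ W, ∀ b ∈ W, a * b = b * a) (hW2 : ∀ a ∈ W, a * a = 1)
    (hK : ∀ g : X, (∀ w ∈ W, g * w = w * g) → g ∈ W) {T : X} (hT : T * T = 1) (hTW : T ∉ W) :
    Nat.card (W ⊓ Subgroup.centralizer ({T} : Set X) : Subgroup X) = 4 ∧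
      ∀ w ∈ W, T * w = w * T → ∃ x ∈ W, w = x * (T * x⁻¹ * T⁻¹) := by
  classical
  haveI : Fact (Nat.Prime 5) := ⟨by norm_num⟩
  obtain ⟨f, hf⟩ := exists_prime_orderOf_dvd_card' (G := X) 5 (by rw [hX]; norm_num)
  have hf5 : f ^ 5 = 1 := by rw [← hf]; exact pow_orderOf_eq_one f
  have hf1 : f ≠ 1 := by rintro rfl; rw [orderOf_one] at hf; omega
  have conjW : ∀ (g : X) (w : X), w ∈ W → g * w * g⁻¹ ∈ W := fun g w hw => hWn.conj_mem w hw g
  have notW : ∀ g : X, g ^ 5 = 1 → g ≠ 1 → g ∉ W := by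
    intro g hg hg1 hgW
    have h2 := hW2 g hgW
    have : g = 1 := by
      have e : g ^ 5 = g * g * (g * g) * g := by simp only [pow_succ, pow_zero, one_mul, mul_assoc]
      rw [e, h2] at hg; simpa using hg
    exact hg1 this
  -- elements of order five act fixed point freely
  have fpf : ∀ g : X, g ^ 5 = 1 → g ≠ 1 → W ⊓ Subgroup.centralizer ({g} : Set X) = ⊥ := by
    intro g hg hg1
    have h1 := fixed_mod5 hg W (fun e he => conjW g e he)
    have h2 : Nat.card (W ⊓ Subgroup.centralizer ({g} : Set X) : Subgroup X) ∣ 16 := by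
      rw [← hW]; exact Subgroup.card_dvd_of_le inf_le_left
    rw [hW] at h1
    rcases pow2 h2 with h | h | h | h | h
    · exact Subgroup.card_eq_one.1 h
    · omega
    · omega
    · omega
    · exfalso
      have h3 : W ⊓ Subgroup.centralizer ({g} : Set X) = W :=
        Subgroup.eq_of_le_of_card_ge inf_le_left (by rw [h, hW])
      apply notW g hg hg1
      apply hK
      intro w hw
      rw [← h3] at hw
      exact (Subgroup.mem_centralizer_singleton_iff.1 (Subgroup.mem_inf.1 hw).2).symm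
  have hTi : T⁻¹ = T := inv_eq_of_mul_eq_one_left hT
  have hTi' : ∀ g : X, T * (T * g) = g := by intro g; rw [← mul_assoc, hT, one_mul]
  set E : Subgroup X := W ⊓ Subgroup.centralizer ({T} : Set X) with hE
  have hEmem : ∀ x, x ∈ E ↔ x ∈ W ∧ x * T = T * x := by
    intro x; rw [hE, Subgroup.mem_inf, Subgroup.mem_centralizer_singleton_iff]
  -- the commutator homomorphism
  let δ : W →* X :=
    { toFun := fun x => x * (T * (x : X)⁻¹ * T⁻¹)
      map_one' := by simp
      map_mul' := by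
        intro x y
        have h1 : (T * (y : X)⁻¹ * T⁻¹) ∈ W := conjW T _ (W.inv_mem y.2)
        have h2 : (T * (x : X)⁻¹ * T⁻¹) ∈ W := conjW T _ (W.inv_mem x.2)
        show (x * y : X) * (T * (x * y : X)⁻¹ * T⁻¹) = x * (T * (x : X)⁻¹ * T⁻¹) * (y * (T * (y : X)⁻¹ * T⁻¹))
        have h3 : (T * (x * y : X)⁻¹ * T⁻¹) = (T * (y : X)⁻¹ * T⁻¹) * (T * (x : X)⁻¹ * T⁻¹) := by group
        rw [h3, hWc _ h1 _ h2]
        have h4 := hWc _ y.2 _ h2
        calc (x * y : X) * ((T * (x : X)⁻¹ * T⁻¹) * (T * (y : X)⁻¹ * T⁻¹))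
            = x * (y * (T * (x : X)⁻¹ * T⁻¹)) * (T * (y : X)⁻¹ * T⁻¹) := by simp only [mul_assoc]
          _ = _ := by rw [h4]; simp only [mul_assoc] }
  have hδ : ∀ x : W, δ x = x * (T * (x : X)⁻¹ * T⁻¹) := fun _ => rfl
  have hker : Nat.card δ.ker = Nat.card E := by
    apply Nat.card_congr
    refine ⟨fun x => ⟨x.1.1, ?_⟩, fun x => ⟨⟨x.1, ((hEmem _).1 x.2).1⟩, ?_⟩, ?_, ?_⟩
    · rw [hEmem]
      refine ⟨x.1.2, ?_⟩
      have h1 : δ x.1 = 1 := x.2
      rw [hδ] at h1
      have h2 : (x.1 : X) = T * (x.1 : X) * T⁻¹ := by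
        have := mul_eq_one_iff_eq_inv.1 h1
        exact this.trans (by group)
      have h3 := eq_mul_inv_iff_mul_eq.1 h2
      exact h3
    · show δ _ = 1
      rw [hδ]
      have h1 := ((hEmem _).1 x.2).2
      show (x.1 : X) * (T * (x.1 : X)⁻¹ * T⁻¹) = 1
      have h2 : T * (x.1 : X)⁻¹ * T⁻¹ = (T * x.1 * T⁻¹)⁻¹ := by group
      rw [h2, ← h1]; group
    · intro x; rfl
    · intro x; rfl
  have hprod : Nat.card δ.range * Nat.card E = 16 := by
    rw [← hker, ← hW, ← Subgroup.index_ker, mul_comm]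
    exact Subgroup.card_mul_index _
  have hrange : δ.range ≤ E := by
    rintro _ ⟨x, rfl⟩
    have h1 : δ x ∈ W := by rw [hδ]; exact W.mul_mem x.2 (conjW T _ (W.inv_mem x.2))
    rw [hEmem]
    refine ⟨h1, ?_⟩
    have h2 : T * δ x * T⁻¹ = (δ x)⁻¹ := by
      rw [hδ]
      have : T * ((x : X) * (T * (x : X)⁻¹ * T⁻¹)) * T⁻¹ = T * x * (T * (x : X)⁻¹ * (T⁻¹ * T⁻¹)) := by
        simp only [mul_assoc]
      rw [this, hTi, hT, mul_one]
      have e2 : ((x : X) * (T * (x : X)⁻¹ * T))⁻¹ = T⁻¹ * x * T⁻¹ * (x : X)⁻¹ := by group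
      rw [e2, hTi]
      simp only [mul_assoc]
    have h3 : (δ x)⁻¹ = δ x := inv_eq_of_mul_eq_one_left (hW2 _ h1)
    rw [h3] at h2
    exact (mul_inv_eq_iff_eq_mul.1 h2).symm
  have hle : Nat.card δ.range ≤ Nat.card E := Subgroup.card_le_of_le hrange
  have hdvd : Nat.card E ∣ 16 := ⟨Nat.card δ.range, by rw [mul_comm]; exact hprod.symm⟩
  have fin : Nat.card E = 4 → ∀ w ∈ W, T * w = w * T → ∃ x ∈ W, w = x * (T * x⁻¹ * T⁻¹) := by
    intro h4 w hw hc
    have h5 : Nat.card δ.range = 4 := by rw [h4] at hprod; omega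
    have h6 : δ.range = E := Subgroup.eq_of_le_of_card_ge hrange (by rw [h4, h5])
    have h7 : w ∈ δ.range := by rw [h6, hEmem]; exact ⟨hw, hc.symm⟩
    obtain ⟨x, hx⟩ := h7
    exact ⟨x, x.2, by rw [← hx, hδ]⟩
  rcases pow2 hdvd with h | h | h | h | h
  · rw [h] at hprod hle; omega
  · rw [h] at hprod hle; omega
  · exact ⟨h, fin h⟩
  · exfalso
    -- the subgroup generated by W and f is normal
    set F : Subgroup X := W ⊔ Subgroup.zpowers f with hF
    have hFn : F.Normal := by
      have h16 : 16 ∣ Nat.card F := by rw [← hW]; exact Subgroup.card_dvd_of_le le_sup_left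
      have h5 : 5 ∣ Nat.card F := by
        rw [← hf, ← Nat.card_zpowers]; exact Subgroup.card_dvd_of_le le_sup_right
      have h80 : 80 ∣ Nat.card F := by
        have := Nat.Coprime.mul_dvd_of_dvd_of_dvd (by norm_num : Nat.Coprime 16 5) h16 h5
        simpa using this
      obtain ⟨k, hk⟩ := h80
      have h2 := Subgroup.card_mul_index F
      rw [hX, hk] at h2
      have h3 : k * F.index = 2 := by
        have : 80 * (k * F.index) = 80 * 2 := by rw [← mul_assoc, h2]
        omega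
      have h4 : F.index ∣ 2 := ⟨k, by rw [mul_comm]; exact h3.symm⟩
      rcases (Nat.dvd_prime Nat.prime_two).1 h4 with h | h
      · rw [Subgroup.index_eq_one.1 h]; infer_instance
      · exact Subgroup.normal_of_index_eq_two h
    have hfF : f ∈ F := Subgroup.mem_sup_right (Subgroup.mem_zpowers f)
    have huF : T * f * T⁻¹ * f⁻¹ ∈ F := F.mul_mem (hFn.conj_mem f hfF T) (F.inv_mem hfF)
    obtain ⟨w, hw, z, hz, hwz⟩ := Subgroup.mem_sup_of_normal_left.1 huF
    -- T' = f T f⁻¹
    have hz5 : z ^ 5 = 1 := by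
      obtain ⟨j, rfl⟩ := hz
      show (f ^ j) ^ 5 = 1
      rw [← zpow_natCast, ← zpow_mul, mul_comm, zpow_mul, zpow_natCast, hf5, one_zpow]
    have hTT : T = w * z * (f * T * f⁻¹) := by
      rw [hwz, hTi]
      have : T * f * T * f⁻¹ * (f * T * f⁻¹) = T * f * (T * T) * f⁻¹ := by group
      rw [this, hT]; group
    have bot_of : z ≠ 1 → False := by
      intro hz1
      have hE' : E ⊓ MulAut.conj f • E = ⊥ := by
        rw [eq_bot_iff, ← fpf z hz5 hz1]
        intro x hx
        obtain ⟨hx1, hx2⟩ := Subgroup.mem_inf.1 hx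
        rw [Cfsg.Agent.H1.Basic.mem_conj] at hx2
        have hx3 := (hEmem _).1 hx1
        have hx4 := (hEmem _).1 hx2
        refine Subgroup.mem_inf.2 ⟨hx3.1, ?_⟩
        rw [Subgroup.mem_centralizer_singleton_iff]
        have c1 : Commute x T := hx3.2
        have c2 : Commute x w := hWc _ hx3.1 _ hw
        have c3 : Commute x (f * T * f⁻¹) := by
          show x * (f * T * f⁻¹) = f * T * f⁻¹ * x
          have : x * (f * T * f⁻¹) = f * (f⁻¹ * x * f * T) * f⁻¹ := by group
          rw [this, hx4.2]; group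
        have e : z = w⁻¹ * T * (f * T * f⁻¹)⁻¹ := by
          nth_rw 1 [hTT]; group
        have c4 : Commute x z := by
          rw [e]; exact (c2.inv_right.mul_right c1).mul_right c3.inv_right
        exact c4
      have hn : (MulAut.conj f • E) ≤ W := by
        intro x hx
        rw [Cfsg.Agent.H1.Basic.mem_conj] at hx
        have := conjW f _ ((hEmem _).1 hx).1
        have e1 : f * (f⁻¹ * x * f) * f⁻¹ = x := by group
        rwa [e1] at this
      have hinj : Function.Injective (fun p : E × (MulAut.conj f • E : Subgroup X) =>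
          (⟨p.1 * p.2, W.mul_mem ((hEmem _).1 p.1.2).1 (hn p.2.2)⟩ : W)) := by
        rintro ⟨a, b⟩ ⟨c, d⟩ hab
        have h1 : (a : X) * b = c * d := congrArg Subtype.val hab
        have h2 : (c : X)⁻¹ * a = d * (b : X)⁻¹ := by
          rw [inv_mul_eq_iff_eq_mul, ← mul_assoc, ← h1]; group
        have h3 : (c : X)⁻¹ * a ∈ E ⊓ MulAut.conj f • E :=
          Subgroup.mem_inf.2 ⟨E.mul_mem (E.inv_mem c.2) a.2, by
            rw [h2]; exact Subgroup.mul_mem _ d.2 (Subgroup.inv_mem _ b.2)⟩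
        rw [hE', Subgroup.mem_bot] at h3
        have h4 : (a : X) = c := (inv_mul_eq_one.1 h3).symm
        rw [h3] at h2
        have h5 : (b : X) = d := (mul_inv_eq_one.1 h2.symm).symm
        exact Prod.ext (Subtype.ext h4) (Subtype.ext h5)
      have hc := Nat.card_le_card_of_injective _ hinj
      rw [Nat.card_prod, Cfsg.Agent.H1.Basic.card_conj, h, hW] at hc
      omega
    by_cases hz1 : z = 1
    · rw [hz1, mul_one] at hTT
      have hfE : ∀ e ∈ E, f * e * f⁻¹ ∈ E := by
        intro e he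
        have he' := (hEmem _).1 he
        rw [hEmem]
        refine ⟨conjW f e he'.1, ?_⟩
        have c1 : Commute (f * e * f⁻¹) (f * T * f⁻¹) := by
          show f * e * f⁻¹ * (f * T * f⁻¹) = f * T * f⁻¹ * (f * e * f⁻¹)
          have : f * e * f⁻¹ * (f * T * f⁻¹) = f * (e * T) * f⁻¹ := by group
          rw [this, he'.2]; group
        have c2 : Commute (f * e * f⁻¹) w := hWc _ (conjW f e he'.1) _ hw
        have c3 : Commute (f * e * f⁻¹) (w * (f * T * f⁻¹)) := c2.mul_right c1
        rw [← hTT] at c3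
        exact c3
      have h1 := fixed_mod5 hf5 E hfE
      have h2 : E ⊓ Subgroup.centralizer ({f} : Set X) = ⊥ := by
        rw [eq_bot_iff, ← fpf f hf5 hf1]
        exact inf_le_inf_right _ inf_le_left
      rw [h2, h, Subgroup.card_bot] at h1
      omega
    · exact bot_of hz1
  · exfalso
    have h3 : E = W := Subgroup.eq_of_le_of_card_ge inf_le_left (by rw [h, hW])
    apply hTW
    apply hK
    intro w hw
    rw [← h3] at hw
    exact ((hEmem _).1 hw).2.symm

end Cfsg.Agent.H19.X320
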