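import Cfsg.Agent.H2_Extra3
import Cfsg.Agent.H17_Xsp

set_option autoImplicit false

/-! The two types of extraspecial 2-groups of given order. -/

namespace Cfsg.Agent.H19.XspA

open Subgroup Cfsg
open Cfsg.Agent.H2.Extra
open scoped commutatorElement

universe u v

/-- `x` commuting with `B`, `x² = 1`, `x ∉ B` doubles the order. -/
theorem card_sup {E : Type*} [Group E] [Finite E] (B : Subgroup E) (x : E) (hx : x * x = 1) (hxB : x ∉ B)
    (hc : ∀ b ∈ B, b * x = x * b) : Nat.card (B ⊔ zpowers x : Subgroup E) = 2 * Nat.card B := by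
  have hcomm : ∀ (b : B) (w : zpowers x), Commute (B.subtype b) ((zpowers x).subtype w) := by
    rintro ⟨b, hb⟩ ⟨w, hw⟩
    obtain ⟨k, rfl⟩ := mem_zpowers_iff.1 hw
    have : Commute b x := hc b hb
    exact this.zpow_right k
  have hr := MonoidHom.noncommCoprod_range B.subtype (zpowers x).subtype hcomm
  rw [Subgroup.range_subtype, Subgroup.range_subtype] at hr
  have hzz : ∀ w ∈ zpowers x, w = 1 ∨ w = x := by
    intro w hw
    obtain ⟨k, rfl⟩ := mem_zpowers_iff.1 hw
    have hx2 : x ^ (2 : ℤ) = 1 := by rw [zpow_two]; exact hx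
    rcases Int.even_or_odd' k with ⟨j, rfl | rfl⟩
    · left; rw [zpow_mul, hx2, one_zpow]
    · right; rw [zpow_add, zpow_mul, hx2, one_zpow, one_mul, zpow_one]
  have hinj : Function.Injective (MonoidHom.noncommCoprod B.subtype (zpowers x).subtype hcomm) := by
    rw [injective_iff_map_eq_one]
    rintro ⟨⟨b, hb⟩, ⟨w, hw⟩⟩ h
    have h1 : b * w = 1 := h
    rcases hzz w hw with h3 | h3
    · subst h3
      rw [mul_one] at h1
      subst h1; rfl
    · exfalso
      apply hxB
      rw [h3] at h1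
      have : x = b⁻¹ := eq_inv_of_mul_eq_one_right h1
      rw [this]; exact inv_mem hb
  have hx1 : x ≠ 1 := fun h => hxB (by rw [h]; exact one_mem B)
  have h2 : Nat.card (zpowers x) = 2 := by
    rw [Nat.card_zpowers]
    exact orderOf_eq_prime (by rw [pow_two]; exact hx) hx1
  rw [← hr, ← Nat.card_congr (MonoidHom.ofInjective hinj).toEquiv, Nat.card_prod, h2, mul_comm]

theorem el_sup {E : Type*} [Group E] (B : Subgroup E) (x : E) (hx : x * x = 1)
    (hB : IsElementaryAbelian 2 B) (hc : ∀ b ∈ B, b * x = x * b) : IsElementaryAbelian 2 (B ⊔ zpowers x) := by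
  have hBc : ∀ a ∈ B, ∀ b ∈ B, a * b = b * a := fun a ha b hb =>
    congrArg Subtype.val (hB.1.is_comm.comm ⟨a, ha⟩ ⟨b, hb⟩)
  have hx2 : x ^ (2 : ℤ) = 1 := by rw [zpow_two]; exact hx
  have hform : ∀ w ∈ B ⊔ zpowers x, ∃ b ∈ B, w = b ∨ w = b * x := by
    intro w hw
    refine Subgroup.closure_induction (p := fun w _ => ∃ b ∈ B, w = b ∨ w = b * x) ?_ ?_ ?_ ?_
      (by rwa [← Subgroup.closure_eq B, ← Subgroup.closure_eq (zpowers x), ← Subgroup.closure_union] at hw :
        w ∈ Subgroup.closure ((B : Set E) ∪ (zpowers x : Set E)))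
    · rintro w (hw | hw)
      · exact ⟨w, hw, Or.inl rfl⟩
      · obtain ⟨k, rfl⟩ := mem_zpowers_iff.1 hw
        rcases Int.even_or_odd' k with ⟨j, rfl | rfl⟩
        · exact ⟨1, one_mem B, Or.inl (by rw [zpow_mul, hx2, one_zpow])⟩
        · exact ⟨1, one_mem B, Or.inr (by rw [zpow_add, zpow_mul, hx2, one_zpow, zpow_one])⟩
    · exact ⟨1, one_mem B, Or.inl rfl⟩
    · rintro w w' - - ⟨b, hb, rfl | rfl⟩ ⟨b', hb', rfl | rfl⟩
      · exact ⟨_, mul_mem hb hb', Or.inl rfl⟩
      · exact ⟨_, mul_mem hb hb', Or.inr (by rw [mul_assoc])⟩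
      · exact ⟨_, mul_mem hb hb', Or.inr (by rw [mul_assoc, mul_assoc, hc _ hb'])⟩
      · refine ⟨_, mul_mem hb hb', Or.inl ?_⟩
        rw [mul_assoc b x, ← mul_assoc x b' x, ← hc b' hb', mul_assoc b' x x, hx, mul_one]
    · rintro w - ⟨b, hb, rfl | rfl⟩
      · exact ⟨_, inv_mem hb, Or.inl rfl⟩
      · refine ⟨_, inv_mem hb, Or.inr ?_⟩
        rw [mul_inv_rev, inv_eq_of_mul_eq_one_right hx, hc _ (inv_mem hb)]
  refine ⟨⟨⟨?_⟩⟩, ?_⟩
  · rintro ⟨w, hw⟩ ⟨w', hw'⟩
    apply Subtype.ext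
    show w * w' = w' * w
    obtain ⟨b, hb, rfl | rfl⟩ := hform w hw <;> obtain ⟨b', hb', rfl | rfl⟩ := hform w' hw'
    · exact hBc _ hb _ hb'
    · rw [← mul_assoc, hBc _ hb _ hb', mul_assoc, hc _ hb, ← mul_assoc]
    · rw [mul_assoc, ← hc _ hb', ← mul_assoc, hBc _ hb _ hb', mul_assoc]
    · rw [mul_assoc b x, ← mul_assoc x b' x, ← hc _ hb', mul_assoc b' x x, hx, mul_one, mul_assoc b' x, ← mul_assoc x b x,
        ← hc _ hb, mul_assoc b x x, hx, mul_one, hBc _ hb _ hb']
  · intro w hw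
    obtain ⟨b, hb, rfl | rfl⟩ := hform w hw
    · exact hB.2 _ hb
    · have : (b * x) ^ 2 = b ^ 2 * (x * x) := by
        rw [pow_two, mul_assoc b x, ← mul_assoc x b x, ← hc _ hb, mul_assoc b x x, pow_two, mul_assoc]
      rw [this, hx, hB.2 b hb, mul_one]

theorem cover {E : Type*} [Group E] [Finite E] {A B : Subgroup E} {a0 : E} (h : ∀ a ∈ A, a ∈ B ∨ a * a0 ∈ B) :
    Nat.card A ≤ 2 * Nat.card B := by
  have h1 : (A : Set E) ⊆ (B : Set E) ∪ (fun b => b * a0⁻¹) '' (B : Set E) := by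
    intro a ha
    rcases h a ha with h2 | h2
    · exact Or.inl h2
    · exact Or.inr ⟨a * a0, h2, by simp⟩
  have h3 := Set.ncard_le_ncard h1 (Set.toFinite _)
  have h4 := Set.ncard_union_le (B : Set E) ((fun b => b * a0⁻¹) '' (B : Set E))
  have h5 := Set.ncard_image_le (f := fun b => b * a0⁻¹) (s := (B : Set E)) (Set.toFinite _)
  have h6 : (A : Set E).ncard = Nat.card A := rfl
  have h7 : (B : Set E).ncard = Nat.card B := rfl
  omega

/-- plus type -/
def Plus (E : Type*) [Group E] (n : ℕ) : Prop := ∃ A : Subgroup E, IsElementaryAbelian 2 A ∧ Nat.card A = 2 ^ (n + 1)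

section

variable {E : Type*} [Group E] [Finite E]

/-- upper bound for abelian subgroups -/
theorem card_le {n : ℕ} (hE : IsExtraspecial 2 E) (hcard : Nat.card E = 2 ^ (2 * n + 1)) (A : Subgroup E)
    (hA : IsMulCommutative A) : Nat.card A ≤ 2 ^ (n + 1) := by
  haveI : Fact (Nat.Prime 2) := ⟨Nat.prime_two⟩
  have h1 := es_index_centralizer hE A
  have hAA : A ≤ centralizer (A : Set E) := by
    intro a ha
    rw [mem_centralizer_iff]
    intro b hb
    exact congrArg Subtype.val (hA.is_comm.comm (⟨b, hb⟩ : A) ⟨a, ha⟩)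
  have h2 : Nat.card (center E ⊓ A : Subgroup E) * (center E).relIndex A = Nat.card A := by
    rw [← Subgroup.inf_relIndex_right, ← Subgroup.relIndex_bot_left, ← Subgroup.relIndex_bot_left A]
    exact Subgroup.relIndex_mul_relIndex _ _ _ bot_le inf_le_right
  have h3 : Nat.card (centralizer (A : Set E)) * (centralizer (A : Set E)).index = Nat.card E :=
    Subgroup.card_mul_index _
  have h4 : Nat.card A ≤ Nat.card (centralizer (A : Set E)) := Subgroup.card_le_of_le hAA
  have h5 : Nat.card (center E ⊓ A : Subgroup E) ≤ 2 := by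
    rw [← hE.2]
    exact Subgroup.card_le_of_le inf_le_left
  rw [h1, hcard] at h3
  by_contra hlt
  push Not at hlt
  have h6 : Nat.card A * Nat.card A ≤ 2 * 2 ^ (2 * n + 1) := by
    rw [← h3]
    calc Nat.card A * Nat.card A = Nat.card A * (Nat.card (center E ⊓ A : Subgroup E) * (center E).relIndex A) := by rw [h2]
      _ ≤ Nat.card (centralizer (A : Set E)) * (2 * (center E).relIndex A) :=
        Nat.mul_le_mul h4 (Nat.mul_le_mul_right _ h5)
      _ = _ := by ring
  have h7 : 2 ^ (n + 1) * 2 ^ (n + 1) < Nat.card A * Nat.card A := Nat.mul_lt_mul'' hlt hlt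
  have h8 : 2 ^ (n + 1) * 2 ^ (n + 1) = 2 * 2 ^ (2 * n + 1) := by ring
  omega

variable {x y : E}

theorem commC {a : E} (ha : a ∈ centralizer ((closure ({x, y} : Set E) : Subgroup E) : Set E)) : a * x = x * a ∧ a * y = y * a := by
  rw [mem_centralizer_iff] at ha
  exact ⟨(ha x (subset_closure (by simp))).symm, (ha y (subset_closure (by simp))).symm⟩

theorem memC {a : E} (h1 : a * x = x * a) (h2 : a * y = y * a) :
    a ∈ centralizer ((closure ({x, y} : Set E) : Subgroup E) : Set E) := by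
  rw [mem_centralizer_iff]
  intro b hb
  have hle : closure ({x, y} : Set E) ≤ centralizer ({a} : Set E) := by
    rw [closure_le]
    rintro w (rfl | rfl)
    · exact mem_centralizer_singleton_iff.2 (by rw [h1])
    · exact mem_centralizer_singleton_iff.2 (by rw [h2])
  exact mem_centralizer_singleton_iff.1 (hle hb)

theorem x_notin (hxy : ⁅x, y⁆ ≠ 1) : x ∉ centralizer ((closure ({x, y} : Set E) : Subgroup E) : Set E) := by
  intro h
  apply hxy
  rw [commutatorElement_eq_one_iff_mul_comm]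
  exact (commC h).2

/-- the card of the centralizer of a dihedral pair -/
theorem card_cent (hE : IsExtraspecial 2 E) {n : ℕ} (hn : 1 ≤ n) (hcard : Nat.card E = 2 ^ (2 * (n + 1) + 1))
    (hxy : ⁅x, y⁆ ≠ 1) (hx : x ^ 2 = 1) (hy : y ^ 2 = 1) :
    Nat.card (centralizer ((closure ({x, y} : Set E) : Subgroup E) : Set E)) = 2 ^ (2 * n + 1) := by
  haveI : Fact (Nat.Prime 2) := ⟨Nat.prime_two⟩
  have h8 : 8 < Nat.card E := by
    rw [hcard]
    calc 8 = 2 ^ 3 := by norm_num
      _ < 2 ^ (2 * (n + 1) + 1) := Nat.pow_lt_pow_right (by norm_num) (by omega)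
  obtain ⟨-, -, h3⟩ := step_data hE h8 hxy hx hy
  have h := card_centralizer_mul hE _ (es_pair_center hE hxy)
  rw [h3, hcard] at h
  have h4 : 2 ^ (2 * (n + 1) + 1) * 2 = 8 * 2 ^ (2 * n + 1) := by ring
  omega

theorem plus_iff (hE : IsExtraspecial 2 E) {n : ℕ} (hn : 1 ≤ n) (hcard : Nat.card E = 2 ^ (2 * (n + 1) + 1))
    (hxy : ⁅x, y⁆ ≠ 1) (hx : x ^ 2 = 1) (hy : y ^ 2 = 1) :
    Plus E (n + 1) ↔ Plus (centralizer ((closure ({x, y} : Set E) : Subgroup E) : Set E)) n := by
  haveI : Fact (Nat.Prime 2) := ⟨Nat.prime_two⟩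
  have hx' : x * x = 1 := by rw [← pow_two]; exact hx
  constructor
  · -- first: a maximal elementary abelian subgroup containing `x`
    have step : Plus E (n + 1) → ∃ A : Subgroup E, IsElementaryAbelian 2 A ∧ Nat.card A = 2 ^ (n + 2) ∧ x ∈ A := by
      rintro ⟨A, hA, hAc⟩
      by_cases hxA : x ∈ A
      · exact ⟨A, hA, hAc, hxA⟩
      have hA0 : Nat.card A ≤ 2 * Nat.card (A ⊓ centralizer ({x} : Set E) : Subgroup E) := by
        by_cases hall : ∀ a ∈ A, a * x = x * a
        · have : A ⊓ centralizer ({x} : Set E) = A := by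
            rw [inf_eq_left]
            intro a ha
            exact mem_centralizer_singleton_iff.2 (hall a ha)
          rw [this]
          omega
        · push Not at hall
          obtain ⟨a0, ha0, hne⟩ := hall
          have hcen := comm_mem_center hE
          have hcov : ∀ a ∈ A, a ∈ A ⊓ centralizer ({x} : Set E) ∨ a * a0 ∈ A ⊓ centralizer ({x} : Set E) := by
            intro a ha
            by_cases h1 : a * x = x * a
            · exact Or.inl ⟨ha, mem_centralizer_singleton_iff.2 h1⟩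
            · right
              refine ⟨mul_mem ha ha0, mem_centralizer_singleton_iff.2 ?_⟩
              have h2 : ⁅a, x⁆ ≠ 1 := fun h => h1 (commutatorElement_eq_one_iff_mul_comm.1 h)
              have h3 : ⁅a0, x⁆ ≠ 1 := fun h => hne (commutatorElement_eq_one_iff_mul_comm.1 h)
              have h4 : ⁅a, x⁆ = ⁅a0, x⁆ := two_center hE (hcen _ _) (hcen _ _) h2 h3
              have h5 : ⁅a * a0, x⁆ = 1 := by
                rw [Cfsg.Agent.H2.Class.comm_mul_left hcen, h4, ← pow_two]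
                exact center_pow hE (hcen _ _)
              exact commutatorElement_eq_one_iff_mul_comm.1 h5
          exact cover hcov
      have hel : IsElementaryAbelian 2 (A ⊓ centralizer ({x} : Set E)) := by
        refine ⟨⟨⟨?_⟩⟩, fun a ha => hA.2 a ha.1⟩
        rintro ⟨a, ha⟩ ⟨b, hb⟩
        apply Subtype.ext
        show a * b = b * a
        exact congrArg (fun z : A => (z : E)) (hA.1.is_comm.comm ⟨a, ha.1⟩ ⟨b, hb.1⟩)
      have hcm : ∀ b ∈ A ⊓ centralizer ({x} : Set E), b * x = x * b := fun b hb => mem_centralizer_singleton_iff.1 hb.2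
      have hB := el_sup _ x hx' hel hcm
      have hBc := card_sup (A ⊓ centralizer ({x} : Set E)) x hx' (fun h => hxA h.1) hcm
      refine ⟨_, hB, ?_, mem_sup_right (mem_zpowers x)⟩
      have hle := card_le hE hcard _ hB.1
      rw [hAc] at hA0
      have : 2 ^ (n + 1 + 1) = 2 ^ (n + 2) := rfl
      omega
    intro hP
    obtain ⟨A, hA, hAc, hxA⟩ := step hP
    have hcen := comm_mem_center hE
    set C := centralizer ((closure ({x, y} : Set E) : Subgroup E) : Set E) with hC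
    have hAcomm : ∀ a ∈ A, ∀ b ∈ A, a * b = b * a := fun a ha b hb =>
      congrArg Subtype.val (hA.1.is_comm.comm ⟨a, ha⟩ ⟨b, hb⟩)
    have hcov : ∀ a ∈ A, a ∈ A ⊓ C ∨ a * x ∈ A ⊓ C := by
      intro a ha
      by_cases h1 : a * y = y * a
      · exact Or.inl ⟨ha, memC (hAcomm a ha x hxA) h1⟩
      · right
        refine ⟨mul_mem ha hxA, memC (hAcomm _ (mul_mem ha hxA) x hxA) ?_⟩
        have h2 : ⁅a, y⁆ ≠ 1 := fun h => h1 (commutatorElement_eq_one_iff_mul_comm.1 h)
        have h4 : ⁅a, y⁆ = ⁅x, y⁆ := two_center hE (hcen _ _) (hcen _ _) h2 hxy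
        have h5 : ⁅a * x, y⁆ = 1 := by
          rw [Cfsg.Agent.H2.Class.comm_mul_left hcen, h4, ← pow_two]
          exact center_pow hE (hcen _ _)
        exact commutatorElement_eq_one_iff_mul_comm.1 h5
    have hxAC : x ∉ A ⊓ C := fun h => x_notin hxy h.2
    have hel : IsElementaryAbelian 2 (A ⊓ C) := by
      refine ⟨⟨⟨?_⟩⟩, fun a ha => hA.2 a ha.1⟩
      rintro ⟨a, ha⟩ ⟨b, hb⟩
      apply Subtype.ext
      show a * b = b * a
      exact congrArg (fun z : A => (z : E)) (hA.1.is_comm.comm ⟨a, ha.1⟩ ⟨b, hb.1⟩)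
    have hcd := card_sup (A ⊓ C) x hx' hxAC (fun b hb => hAcomm b hb.1 x hxA)
    have heq : (A ⊓ C) ⊔ zpowers x = A := by
      apply le_antisymm
      · rw [sup_le_iff]
        exact ⟨inf_le_left, by rw [zpowers_le]; exact hxA⟩
      · intro a ha
        rcases hcov a ha with h | h
        · exact mem_sup_left h
        · have : a = (a * x) * x := by rw [mul_assoc, hx', mul_one]
          rw [this]
          exact mul_mem (mem_sup_left h) (mem_sup_right (mem_zpowers x))
    rw [heq, hAc] at hcd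
    refine ⟨(A ⊓ C).subgroupOf C, ⟨⟨⟨?_⟩⟩, ?_⟩, ?_⟩
    · rintro ⟨⟨a, ha⟩, ha'⟩ ⟨⟨b, hb⟩, hb'⟩
      apply Subtype.ext
      apply Subtype.ext
      exact hAcomm a ha'.1 b hb'.1
    · rintro ⟨a, ha⟩ ha'
      apply Subtype.ext
      exact hA.2 a ha'.1
    · rw [Nat.card_congr (Subgroup.subgroupOfEquivOfLe inf_le_right).toEquiv]
      have : 2 ^ (n + 2) = 2 * 2 ^ (n + 1) := by ring
      omega
  · rintro ⟨B, hB, hBc⟩
    have hBel : IsElementaryAbelian 2 (B.map (centralizer ((closure ({x, y} : Set E) : Subgroup E) : Set E)).subtype) := by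
      refine ⟨⟨⟨?_⟩⟩, ?_⟩
      · rintro ⟨_, a, ha, rfl⟩ ⟨_, b, hb, rfl⟩
        apply Subtype.ext
        exact congrArg (fun z : B => ((z : centralizer ((closure ({x, y} : Set E) : Subgroup E) : Set E)) : E))
          (hB.1.is_comm.comm ⟨a, ha⟩ ⟨b, hb⟩)
      · rintro _ ⟨a, ha, rfl⟩
        exact congrArg Subtype.val (hB.2 a ha)
    have hcm : ∀ b ∈ B.map (centralizer ((closure ({x, y} : Set E) : Subgroup E) : Set E)).subtype, b * x = x * b := by
      rintro _ ⟨a, ha, rfl⟩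
      exact (commC a.2).1
    have hxB : x ∉ B.map (centralizer ((closure ({x, y} : Set E) : Subgroup E) : Set E)).subtype := by
      rintro ⟨a, ha, hax⟩
      have h5 : (a : E) = x := hax
      have h6 := a.2
      rw [h5] at h6
      exact x_notin hxy h6
    refine ⟨_, el_sup _ x hx' hBel hcm, ?_⟩
    rw [card_sup _ x hx' hxB hcm]
    have := Nat.card_congr (Subgroup.equivMapOfInjective B (centralizer ((closure ({x, y} : Set E) : Subgroup E) : Set E)).subtype (Subgroup.subtype_injective _)).toEquiv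
    rw [← this, hBc]
    ring

/-- lower bound for the rank -/
theorem exists_el (n : ℕ) : ∀ (E : Type u) [Group E] [Finite E], IsExtraspecial 2 E → Nat.card E = 2 ^ (2 * (n + 1) + 1) →
    ∃ A : Subgroup E, IsElementaryAbelian 2 A ∧ Nat.card A = 2 ^ (n + 1) := by
  haveI : Fact (Nat.Prime 2) := ⟨Nat.prime_two⟩
  induction n with
  | zero =>
    intro E _ _ hE _
    refine ⟨center E, ⟨inferInstance, fun a ha => center_pow hE ha⟩, ?_⟩
    rw [hE.2]; rfl
  | succ n ih =>
    intro E _ _ hE hcard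
    have h8 : 8 < Nat.card E := by
      rw [hcard]
      calc 8 = 2 ^ 3 := by norm_num
        _ < 2 ^ (2 * (n + 1 + 1) + 1) := Nat.pow_lt_pow_right (by norm_num) (by omega)
    obtain ⟨x, y, hxy, hx, hy⟩ := hasD_of_card hE h8
    have hx' : x * x = 1 := by rw [← pow_two]; exact hx
    obtain ⟨h1, -, -⟩ := step_data hE h8 hxy hx hy
    obtain ⟨B, hB, hBc⟩ := ih _ h1 (card_cent hE (by omega) hcard hxy hx hy)
    have hBel : IsElementaryAbelian 2 (B.map (centralizer ((closure ({x, y} : Set E) : Subgroup E) : Set E)).subtype) := by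
      refine ⟨⟨⟨?_⟩⟩, ?_⟩
      · rintro ⟨_, a, ha, rfl⟩ ⟨_, b, hb, rfl⟩
        apply Subtype.ext
        exact congrArg (fun z : B => ((z : centralizer ((closure ({x, y} : Set E) : Subgroup E) : Set E)) : E))
          (hB.1.is_comm.comm ⟨a, ha⟩ ⟨b, hb⟩)
      · rintro _ ⟨a, ha, rfl⟩
        exact congrArg Subtype.val (hB.2 a ha)
    have hcm : ∀ b ∈ B.map (centralizer ((closure ({x, y} : Set E) : Subgroup E) : Set E)).subtype, b * x = x * b := by
      rintro _ ⟨a, ha, rfl⟩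
      exact (commC a.2).1
    have hxB : x ∉ B.map (centralizer ((closure ({x, y} : Set E) : Subgroup E) : Set E)).subtype := by
      rintro ⟨a, ha, hax⟩
      have h5 : (a : E) = x := hax
      have h6 := a.2
      rw [h5] at h6
      exact x_notin hxy h6
    refine ⟨_, el_sup _ x hx' hBel hcm, ?_⟩
    rw [card_sup _ x hx' hxB hcm]
    have := Nat.card_congr (Subgroup.equivMapOfInjective B (centralizer ((closure ({x, y} : Set E) : Subgroup E) : Set E)).subtype (Subgroup.subtype_injective _)).toEquiv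
    rw [← this, hBc]
    ring

theorem plus_one_iff (hE : IsExtraspecial 2 E) (hcard : Nat.card E = 2 ^ (2 * 1 + 1)) : Plus E 1 ↔ HasD E := by
  haveI : Fact (Nat.Prime 2) := ⟨Nat.prime_two⟩
  constructor
  · rintro ⟨A, hA, hAc⟩
    obtain ⟨hZ, hC⟩ := Cfsg.Agent.H17.Xsp.center_le_and_cent hE hcard hA hAc
    have hne : ∃ a ∈ A, a ∉ center E := by
      by_contra hcon
      push Not at hcon
      have := Subgroup.card_le_of_le (show A ≤ center E from hcon)
      rw [hAc, hE.2] at this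
      omega
    obtain ⟨a, ha, haZ⟩ := hne
    rw [mem_center_iff] at haZ
    push Not at haZ
    obtain ⟨b, hb⟩ := haZ
    refine hasD_of hE (x := a) (y := b) ?_ (hA.2 a ha)
    intro h
    exact hb (commutatorElement_eq_one_iff_mul_comm.1 h).symm
  · rintro ⟨x, y, hxy, hx, hy⟩
    have hx' : x * x = 1 := by rw [← pow_two]; exact hx
    have hxZ : x ∉ center E := by
      intro h
      apply hxy
      rw [commutatorElement_eq_one_iff_mul_comm]
      exact (mem_center_iff.1 h y).symm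
    have hcm : ∀ b ∈ center E, b * x = x * b := fun b hb => (mem_center_iff.1 hb x).symm
    refine ⟨center E ⊔ zpowers x, el_sup _ x hx' ⟨inferInstance, fun a ha => center_pow hE ha⟩ hcm, ?_⟩
    rw [card_sup _ x hx' hxZ hcm, hE.2]
    norm_num

end

/-- classification -/
theorem iso_of_plus (n : ℕ) : ∀ (E₁ : Type u) (E₂ : Type v) [Group E₁] [Group E₂] [Finite E₁] [Finite E₂],
    IsExtraspecial 2 E₁ → IsExtraspecial 2 E₂ → Nat.card E₁ = 2 ^ (2 * (n + 1) + 1) → Nat.card E₂ = 2 ^ (2 * (n + 1) + 1) →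
    (Plus E₁ (n + 1) ↔ Plus E₂ (n + 1)) → Nonempty (E₁ ≃* E₂) := by
  haveI : Fact (Nat.Prime 2) := ⟨Nat.prime_two⟩
  induction n with
  | zero =>
    intro E₁ E₂ _ _ _ _ h₁ h₂ c₁ c₂ h
    rw [plus_one_iff h₁ c₁, plus_one_iff h₂ c₂] at h
    have c₁' : Nat.card E₁ = 8 := by rw [c₁]; norm_num
    have c₂' : Nat.card E₂ = 8 := by rw [c₂]; norm_num
    by_cases hD : HasD E₁
    · exact iso_of_hasD h₁ h₂ hD (h.1 hD) c₁' c₂'
    · exact iso_of_not_hasD h₁ h₂ hD (fun h' => hD (h.2 h')) c₁' c₂'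
  | succ n ih =>
    intro E₁ E₂ _ _ _ _ h₁ h₂ c₁ c₂ h
    have h8 : ∀ m : ℕ, 8 < 2 ^ (2 * (m + 1 + 1) + 1) := by
      intro m
      calc 8 = 2 ^ 3 := by norm_num
        _ < 2 ^ (2 * (m + 1 + 1) + 1) := Nat.pow_lt_pow_right (by norm_num) (by omega)
    have h81 : 8 < Nat.card E₁ := by rw [c₁]; exact h8 n
    have h82 : 8 < Nat.card E₂ := by rw [c₂]; exact h8 n
    obtain ⟨x₁, y₁, hxy₁, hx₁, hy₁⟩ := hasD_of_card h₁ h81
    obtain ⟨x₂, y₂, hxy₂, hx₂, hy₂⟩ := hasD_of_card h₂ h82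
    obtain ⟨s1, -, -⟩ := step_data h₁ h81 hxy₁ hx₁ hy₁
    obtain ⟨s2, -, -⟩ := step_data h₂ h82 hxy₂ hx₂ hy₂
    rw [plus_iff h₁ (by omega) c₁ hxy₁ hx₁ hy₁, plus_iff h₂ (by omega) c₂ hxy₂ hx₂ hy₂] at h
    obtain ⟨ψ⟩ := ih _ _ s1 s2 (card_cent h₁ (by omega) c₁ hxy₁ hx₁ hy₁) (card_cent h₂ (by omega) c₂ hxy₂ hx₂ hy₂) h
    exact assemble_two h₁ h₂ hxy₁ hx₁ hy₁ hxy₂ hx₂ hy₂ ψ

theorem card_pow {E : Type*} [Group E] [Finite E] (hE : IsExtraspecial 2 E) (A : Subgroup E) : ∃ k, Nat.card A = 2 ^ k := by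
  haveI : Fact (Nat.Prime 2) := ⟨Nat.prime_two⟩
  exact IsPGroup.iff_card.1 (hE.1.1.to_subgroup A)

theorem plus_iff_rank {E : Type*} [Group E] [Finite E] (hE : IsExtraspecial 2 E) {n : ℕ}
    (hcard : Nat.card E = 2 ^ (2 * n + 1)) : Plus E n ↔ ¬ PRankLE 2 n E := by
  constructor
  · rintro ⟨A, hA, hAc⟩ h
    have := h A hA.1 hA.2
    rw [hAc] at this
    exact absurd (Nat.pow_lt_pow_right (by norm_num : 1 < 2) (by omega : n < n + 1)) (not_lt.2 this)
  · intro h
    unfold PRankLE at h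
    push Not at h
    obtain ⟨A, hA, hA2, hlt⟩ := h
    obtain ⟨k, hk⟩ := card_pow hE A
    have h1 := card_le hE hcard A hA
    rw [hk] at h1 hlt
    have h2 : k ≤ n + 1 := (Nat.pow_le_pow_iff_right (by norm_num)).1 h1
    have h3 : n < k := (Nat.pow_lt_pow_iff_right (by norm_num)).1 hlt
    refine ⟨A, ⟨hA, hA2⟩, ?_⟩
    rw [hk]
    congr 1
    omega

theorem one_le {E : Type*} [Group E] [Finite E] (hE : IsExtraspecial 2 E) {n : ℕ}
    (hcard : Nat.card E = 2 ^ (2 * n + 1)) : 1 ≤ n := by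
  haveI : Fact (Nat.Prime 2) := ⟨Nat.prime_two⟩
  obtain ⟨m, hm1, hm, -⟩ := card_eq hE
  rw [hcard] at hm
  have := Nat.pow_right_injective (le_refl 2) hm
  omega

theorem rank_lower {E : Type*} [Group E] [Finite E] (hE : IsExtraspecial 2 E) {n : ℕ}
    (hcard : Nat.card E = 2 ^ (2 * n + 1)) : ∃ A : Subgroup E, IsElementaryAbelian 2 A ∧ Nat.card A = 2 ^ n := by
  obtain ⟨m, rfl⟩ : ∃ m, n = m + 1 := ⟨n - 1, by have := one_le hE hcard; omega⟩
  exact exists_el m E hE hcard

end Cfsg.Agent.H19.XspA
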