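import Cfsg.Agent.H19_XspA

set_option autoImplicit false

/-! Heisenberg type models of extraspecial groups. -/

namespace Cfsg.Agent.H19.XspB

open Subgroup Cfsg
open scoped commutatorElement

/-- the Heisenberg type group of a bilinear form -/
@[ext] structure Ex {K V : Type*} [CommRing K] [AddCommGroup V] [Module K V] (B : LinearMap.BilinForm K V) where
  v : V
  a : K

variable {K V : Type*} [CommRing K] [AddCommGroup V] [Module K V] {B : LinearMap.BilinForm K V}

namespace Ex

instance : Mul (Ex B) := ⟨fun x y => ⟨x.v + y.v, x.a + y.a + B x.v y.v⟩⟩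
instance : One (Ex B) := ⟨⟨0, 0⟩⟩
instance : Inv (Ex B) := ⟨fun x => ⟨-x.v, -x.a + B x.v x.v⟩⟩

@[simp] theorem mul_v (x y : Ex B) : (x * y).v = x.v + y.v := rfl
@[simp] theorem mul_a (x y : Ex B) : (x * y).a = x.a + y.a + B x.v y.v := rfl
@[simp] theorem one_v : (1 : Ex B).v = 0 := rfl
@[simp] theorem one_a : (1 : Ex B).a = 0 := rfl
@[simp] theorem inv_v (x : Ex B) : (x⁻¹).v = -x.v := rfl
@[simp] theorem inv_a (x : Ex B) : (x⁻¹).a = -x.a + B x.v x.v := rfl

instance : Group (Ex B) :=
  Group.ofLeftAxioms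
    (fun x y z => by
      ext
      · simp [add_assoc]
      · simp only [mul_a, mul_v, map_add, LinearMap.add_apply]; ring)
    (fun x => by
      ext
      · simp
      · simp)
    (fun x => by
      ext
      · simp
      · simp)

theorem pow_v (x : Ex B) (k : ℕ) : (x ^ k).v = k • x.v := by
  induction k with
  | zero => simp
  | succ k ih => rw [pow_succ, mul_v, ih, succ_nsmul]

theorem pow_a (x : Ex B) (k : ℕ) : (x ^ k).a = k • x.a + (k.choose 2) • B x.v x.v := by
  induction k with
  | zero => simp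
  | succ k ih =>
    rw [pow_succ, mul_a, ih, pow_v, Nat.choose_succ_succ, map_nsmul, LinearMap.smul_apply]
    simp only [Nat.choose_one_right, succ_nsmul, add_smul, nsmul_eq_mul, Nat.cast_add]
    ring

theorem comm_iff (x y : Ex B) : x * y = y * x ↔ B x.v y.v = B y.v x.v := by
  rw [Ex.ext_iff]
  simp only [mul_v, mul_a]
  constructor
  · rintro ⟨-, h⟩
    rw [add_comm y.a] at h
    exact add_left_cancel h
  · intro h
    exact ⟨add_comm _ _, by rw [h, add_comm x.a]⟩

def equivProd : Ex B ≃ V × K where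
  toFun x := (x.v, x.a)
  invFun p := ⟨p.1, p.2⟩
  left_inv _ := rfl
  right_inv _ := rfl

instance [Finite K] [Finite V] : Finite (Ex B) := Finite.of_equiv _ equivProd.symm

theorem card [Finite K] [Finite V] : Nat.card (Ex B) = Nat.card V * Nat.card K := by
  rw [Nat.card_congr (equivProd (B := B)), Nat.card_prod]

theorem mem_center_iff' (hB : ∀ v, (∀ w, B v w = B w v) → v = 0) (x : Ex B) : x ∈ center (Ex B) ↔ x.v = 0 := by
  rw [mem_center_iff]
  constructor
  · intro h
    apply hB
    intro w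
    exact ((comm_iff ⟨w, 0⟩ x).1 (h ⟨w, 0⟩)).symm
  · intro h y
    rw [comm_iff, h]
    simp

end Ex

section prime

variable {p : ℕ} [hp : Fact p.Prime] {V : Type*} [AddCommGroup V] [Module (ZMod p) V] [Finite V]
  {B : LinearMap.BilinForm (ZMod p) V}

theorem extraspecial [Nontrivial V] (hB : ∀ v, (∀ w, B v w = B w v) → v = 0) : IsExtraspecial p (Ex B) := by
  haveI : NeZero p := ⟨hp.out.ne_zero⟩
  have hpv : ∀ v : V, p • v = 0 := fun v => by
    rw [← Nat.cast_smul_eq_nsmul (ZMod p), ZMod.natCast_self, zero_smul]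
  have hpk : ∀ a : ZMod p, p • a = 0 := fun a => by
    rw [← Nat.cast_smul_eq_nsmul (ZMod p), ZMod.natCast_self, zero_smul]
  have hcard : ∃ k, Nat.card V = p ^ k := by
    obtain ⟨s, b⟩ := Module.Free.exists_basis (R := ZMod p) (M := V)
    haveI : Finite s := Module.Finite.finite_basis b
    haveI := Fintype.ofFinite s
    refine ⟨Fintype.card s, ?_⟩
    rw [Nat.card_congr b.equivFun.toEquiv, Nat.card_fun, Nat.card_zmod, Nat.card_eq_fintype_card]
  refine Cfsg.Agent.H2.Extra.isExtraspecial_of ?_ ?_ ?_ ?_ ?_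
  · obtain ⟨k, hk⟩ := hcard
    apply IsPGroup.of_card (n := k + 1)
    rw [Ex.card, hk, Nat.card_zmod, pow_succ]
  · have e : center (Ex B) ≃ ZMod p :=
      { toFun := fun x => x.1.a
        invFun := fun a => ⟨⟨0, a⟩, (Ex.mem_center_iff' hB _).2 rfl⟩
        left_inv := fun x => by
          apply Subtype.ext
          apply Ex.ext
          · exact ((Ex.mem_center_iff' hB _).1 x.2).symm
          · rfl
        right_inv := fun a => rfl }
    rw [Nat.card_congr e, Nat.card_zmod]
  · intro x y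
    rw [Ex.mem_center_iff' hB, commutatorElement_def]
    simp
  · intro x
    rw [Ex.mem_center_iff' hB, Ex.pow_v, hpv]
  · obtain ⟨v, hv⟩ := exists_ne (0 : V)
    have : ∃ w, B v w ≠ B w v := by
      by_contra hcon
      push Not at hcon
      exact hv (hB v hcon)
    obtain ⟨w, hw⟩ := this
    refine ⟨⟨v, 0⟩, ⟨w, 0⟩, ?_⟩
    rw [Ne, commutatorElement_eq_one_iff_mul_comm, Ex.comm_iff]
    exact hw

end prime

/-! ### the two forms over `ZMod 2` -/

/-- plus type bilinear form -/
def Bp (m : ℕ) : LinearMap.BilinForm (ZMod 2) (Fin m ⊕ Fin m → ZMod 2) :=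
  LinearMap.mk₂ (ZMod 2) (fun v w => ∑ i, v (.inl i) * w (.inr i))
    (fun v v' w => by simp only [Pi.add_apply, add_mul, Finset.sum_add_distrib])
    (fun c v w => by simp only [Pi.smul_apply, smul_eq_mul, mul_assoc, Finset.mul_sum])
    (fun v w w' => by simp only [Pi.add_apply, mul_add, Finset.sum_add_distrib])
    (fun c v w => by
      simp only [Pi.smul_apply, smul_eq_mul, Finset.mul_sum]
      exact Finset.sum_congr rfl (fun i _ => by ring))

theorem Bp_apply (m : ℕ) (v w : Fin m ⊕ Fin m → ZMod 2) : Bp m v w = ∑ i, v (.inl i) * w (.inr i) := rfl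

/-- minus type bilinear form -/
def Bm (m : ℕ) : LinearMap.BilinForm (ZMod 2) ((Fin m ⊕ Fin m) ⊕ Fin 2 → ZMod 2) :=
  LinearMap.mk₂ (ZMod 2) (fun v w => (∑ i, v (.inl (.inl i)) * w (.inl (.inr i))) +
      (v (.inr 0) * w (.inr 0) + v (.inr 0) * w (.inr 1) + v (.inr 1) * w (.inr 1)))
    (fun v v' w => by simp only [Pi.add_apply, add_mul, Finset.sum_add_distrib]; ring)
    (fun c v w => by simp only [Pi.smul_apply, smul_eq_mul, mul_assoc, Finset.mul_sum, mul_add])
    (fun v w w' => by simp only [Pi.add_apply, mul_add, Finset.sum_add_distrib]; ring)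
    (fun c v w => by
      simp only [Pi.smul_apply, smul_eq_mul, Finset.mul_sum, mul_add]
      congr 1
      · exact Finset.sum_congr rfl (fun i _ => by ring)
      · ring)

theorem Bm_apply (m : ℕ) (v w : (Fin m ⊕ Fin m) ⊕ Fin 2 → ZMod 2) : Bm m v w =
    (∑ i, v (.inl (.inl i)) * w (.inl (.inr i))) +
      (v (.inr 0) * w (.inr 0) + v (.inr 0) * w (.inr 1) + v (.inr 1) * w (.inr 1)) := rfl

theorem Bp_self (m : ℕ) (v : Fin m ⊕ Fin m → ZMod 2) : Bp m v v = Cfsg.quadFormPlus m (ZMod 2) v := rfl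

theorem Bm_self (m : ℕ) (v : (Fin m ⊕ Fin m) ⊕ Fin 2 → ZMod 2) : Bm m v v = Cfsg.quadFormMinus m (ZMod 2) 1 1 v := by
  rw [Bm_apply, Cfsg.quadFormMinus]
  ring

theorem Bp_nondeg (m : ℕ) (v : Fin m ⊕ Fin m → ZMod 2) (h : ∀ w, Bp m v w = Bp m w v) : v = 0 := by
  classical
  funext i
  rcases i with i | i
  · have h1 := h (Pi.single (.inr i) 1)
    rw [Bp_apply, Bp_apply, Finset.sum_eq_single i, Finset.sum_eq_zero] at h1
    · simpa using h1
    · intro j _; simp
    · intro j _ hj; simp [Pi.single_apply, hj]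
    · simp
  · have h1 := h (Pi.single (.inl i) 1)
    rw [Bp_apply, Bp_apply, Finset.sum_eq_zero, Finset.sum_eq_single i] at h1
    · simpa using h1.symm
    · intro j _ hj; simp [Pi.single_apply, hj]
    · simp
    · intro j _; simp

theorem Bm_nondeg (m : ℕ) (v : (Fin m ⊕ Fin m) ⊕ Fin 2 → ZMod 2) (h : ∀ w, Bm m v w = Bm m w v) : v = 0 := by
  classical
  funext i
  rcases i with (i | i) | i
  · have h1 := h (Pi.single (.inl (.inr i)) 1)
    rw [Bm_apply, Bm_apply, Finset.sum_eq_single i, Finset.sum_eq_zero] at h1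
    · simpa using h1
    · intro j _; simp
    · intro j _ hj; simp [Pi.single_apply, hj]
    · simp
  · have h1 := h (Pi.single (.inl (.inl i)) 1)
    rw [Bm_apply, Bm_apply, Finset.sum_eq_zero, Finset.sum_eq_single i] at h1
    · simpa using h1.symm
    · intro j _ hj; simp [Pi.single_apply, hj]
    · simp
    · intro j _; simp
  · fin_cases i
    · have h1 := h (Pi.single (.inr 1) 1)
      rw [Bm_apply, Bm_apply, Finset.sum_eq_zero, Finset.sum_eq_zero] at h1
      · simpa using h1
      · intro j _; simp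
      · intro j _; simp
    · have h1 := h (Pi.single (.inr 0) 1)
      rw [Bm_apply, Bm_apply, Finset.sum_eq_zero, Finset.sum_eq_zero] at h1
      · simpa using h1.symm
      · intro j _; simp
      · intro j _; simp

theorem card_V (ι : Type*) [Fintype ι] : Nat.card (ι → ZMod 2) = 2 ^ Fintype.card ι := by
  rw [Nat.card_fun, Nat.card_zmod, Nat.card_eq_fintype_card]

theorem xsp_plus (m : ℕ) (hm : 1 ≤ m) : IsExtraspecial 2 (Ex (Bp m)) ∧ Nat.card (Ex (Bp m)) = 2 ^ (2 * m + 1) ∧
    XspA.Plus (Ex (Bp m)) m := by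
  haveI : Fact (Nat.Prime 2) := ⟨Nat.prime_two⟩
  haveI : Nonempty (Fin m ⊕ Fin m) := ⟨Sum.inl ⟨0, by omega⟩⟩
  refine ⟨extraspecial (Bp_nondeg m), ?_, ?_⟩
  · rw [Ex.card, card_V, Nat.card_zmod, Fintype.card_sum, Fintype.card_fin, pow_succ]
    congr 2; ring
  · let A : Subgroup (Ex (Bp m)) :=
      { carrier := {x | ∀ i, x.v (.inr i) = 0}
        one_mem' := fun i => rfl
        mul_mem' := fun {x y} hx hy i => by
          show x.v (.inr i) + y.v (.inr i) = 0
          rw [hx i, hy i, add_zero]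
        inv_mem' := fun {x} hx i => by
          show -(x.v (.inr i)) = 0
          rw [hx i, neg_zero] }
    have hB : ∀ x ∈ A, ∀ y ∈ A, Bp m x.v y.v = 0 := by
      intro x _ y hy
      rw [Bp_apply]
      apply Finset.sum_eq_zero
      intro i _
      rw [hy i, mul_zero]
    refine ⟨A, ⟨⟨⟨?_⟩⟩, ?_⟩, ?_⟩
    · rintro ⟨x, hx⟩ ⟨y, hy⟩
      apply Subtype.ext
      show x * y = y * x
      rw [Ex.comm_iff, hB x hx y hy, hB y hy x hx]
    · intro x hx
      have h2 : ∀ c : ZMod 2, 2 • c = 0 := fun c => by rw [two_nsmul]; exact CharTwo.add_self_eq_zero c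
      apply Ex.ext
      · rw [Ex.pow_v]
        funext i
        exact h2 _
      · rw [Ex.pow_a, hB x hx x hx, h2]
        rfl
    · have e : A ≃ (Fin m → ZMod 2) × ZMod 2 :=
        { toFun := fun x => (fun i => x.1.v (.inl i), x.1.a)
          invFun := fun y => ⟨⟨Sum.elim y.1 0, y.2⟩, fun i => rfl⟩
          left_inv := by
            rintro ⟨x, hx⟩
            apply Subtype.ext
            apply Ex.ext
            · funext i
              rcases i with i | i
              · rfl
              · exact (hx i).symm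
            · rfl
          right_inv := fun y => rfl }
      rw [Nat.card_congr e, Nat.card_prod, card_V, Nat.card_zmod, Fintype.card_fin, pow_succ]

end Cfsg.Agent.H19.XspB
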