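import Cfsg.Agent.H19_XspB

set_option autoImplicit false

/-! Counting involutions in extraspecial 2-groups. -/

namespace Cfsg.Agent.H19.XspC

open Subgroup Cfsg XspA XspB

/-- number of solutions of `x² = 1` -/
noncomputable def cnt (E : Type*) [Group E] : ℕ := Nat.card {x : E // x ^ 2 = 1}

theorem cnt_congr {E F : Type*} [Group E] [Group F] (e : E ≃* F) : cnt E = cnt F := by
  apply Nat.card_congr
  refine Equiv.subtypeEquiv e.toEquiv (fun x => ?_)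
  show x ^ 2 = 1 ↔ (e x) ^ 2 = 1
  rw [← map_pow, map_eq_one_iff e e.injective]

theorem cnt_plus {E : Type*} [Group E] [Finite E] {m : ℕ} (hE : IsExtraspecial 2 E) (hcard : Nat.card E = 2 ^ (2 * m + 1))
    (hP : Plus E m) : cnt E = 2 ^ (2 * m) + 2 ^ m := by
  classical
  haveI : Fact (Nat.Prime 2) := ⟨Nat.prime_two⟩
  have h1 := Cfsg.Agent.H17.Xsp.card_order_four hE hcard hP
  have h4 : ∀ x : E, ¬ x ^ 2 = 1 ↔ orderOf x = 4 := by
    intro x
    constructor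
    · intro h
      have hx4 : x ^ (2 ^ 2) = 1 := by
        have h5 : x ^ 2 ∈ center E := Cfsg.Agent.H2.Extra.pow_mem_center hE x
        have h6 := Cfsg.Agent.H2.Extra.center_pow hE h5
        rw [← pow_mul] at h6
        exact h6
      rw [orderOf_eq_prime_pow (p := 2) (n := 1) (by rw [pow_one]; exact h) hx4]
      norm_num
    · intro h h2
      have := orderOf_dvd_of_pow_eq_one h2
      rw [h] at this
      omega
  haveI := Fintype.ofFinite E
  have h5 : Nat.card {x : E // x ^ 2 = 1} + Nat.card {x : E // ¬ x ^ 2 = 1} = Nat.card E := by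
    rw [← Nat.card_sum]
    exact Nat.card_congr (Equiv.sumCompl (fun x : E => x ^ 2 = 1))
  have h6 : Nat.card {x : E // ¬ x ^ 2 = 1} = Nat.card {x : E // orderOf x = 4} :=
    Nat.card_congr (Equiv.subtypeEquivRight h4)
  rw [h6, h1, hcard] at h5
  unfold cnt
  have h7 : 2 ^ m ≤ 2 ^ (2 * m) := Nat.pow_le_pow_right (by norm_num) (by omega)
  have h8 : 2 ^ (2 * m + 1) = 2 * 2 ^ (2 * m) := by ring
  omega

theorem cnt_model {V : Type*} [AddCommGroup V] [Module (ZMod 2) V] (B : LinearMap.BilinForm (ZMod 2) V) :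
    cnt (Ex B) = 2 * Nat.card {v : V // B v v = 0} := by
  have hv : ∀ v : V, 2 • v = 0 := fun v => by
    rw [← Nat.cast_smul_eq_nsmul (ZMod 2)]
    exact zero_smul _ v
  have hk : ∀ c : ZMod 2, 2 • c = 0 := fun c => by rw [two_nsmul]; exact CharTwo.add_self_eq_zero c
  have h : ∀ x : Ex B, x ^ 2 = 1 ↔ B x.v x.v = 0 := by
    intro x
    rw [Ex.ext_iff, Ex.pow_v, Ex.pow_a, hv, hk, zero_add]
    simp
  have e : {x : Ex B // x ^ 2 = 1} ≃ {v : V // B v v = 0} × ZMod 2 :=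
    { toFun := fun x => (⟨x.1.v, (h _).1 x.2⟩, x.1.a)
      invFun := fun y => ⟨⟨y.1.1, y.2⟩, (h _).2 y.1.2⟩
      left_inv := fun x => rfl
      right_inv := fun y => rfl }
  unfold cnt
  rw [Nat.card_congr e, Nat.card_prod, Nat.card_zmod, mul_comm]

theorem two_Zp (m : ℕ) : 2 * Nat.card {v : Fin m ⊕ Fin m → ZMod 2 // Bp m v v = 0} = 2 ^ (2 * m) + 2 ^ m := by
  rcases Nat.eq_zero_or_pos m with rfl | hm
  · have : Nat.card {v : Fin 0 ⊕ Fin 0 → ZMod 2 // Bp 0 v v = 0} = 1 := by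
      rw [Nat.card_eq_one_iff_unique]
      refine ⟨⟨fun a b => Subtype.ext (Subsingleton.elim _ _)⟩, ⟨⟨0, by simp⟩⟩⟩
    rw [this]
    norm_num
  · obtain ⟨h1, h2, h3⟩ := xsp_plus m hm
    rw [← cnt_model, cnt_plus h1 h2 h3]

theorem Zm (m : ℕ) : Nat.card {v : (Fin m ⊕ Fin m) ⊕ Fin 2 → ZMod 2 // Bm m v v = 0} =
    Nat.card {v : Fin m ⊕ Fin m → ZMod 2 // Bp m v v = 0} + 3 * (2 ^ (2 * m) - Nat.card {v : Fin m ⊕ Fin m → ZMod 2 // Bp m v v = 0}) := by
  classical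
  let q2 : ZMod 2 × ZMod 2 → ZMod 2 := fun w => w.1 * w.1 + w.1 * w.2 + w.2 * w.2
  let N : ZMod 2 → ℕ := fun c => Nat.card {v : Fin m ⊕ Fin m → ZMod 2 // Bp m v v = c}
  have e : {v : (Fin m ⊕ Fin m) ⊕ Fin 2 → ZMod 2 // Bm m v v = 0} ≃
      Σ w : ZMod 2 × ZMod 2, {u : Fin m ⊕ Fin m → ZMod 2 // Bp m u u = q2 w} :=
    { toFun := fun v => ⟨(v.1 (.inr 0), v.1 (.inr 1)), ⟨fun i => v.1 (.inl i), by
        have h := v.2
        rw [Bm_apply] at h
        show (∑ i, v.1 (.inl (.inl i)) * v.1 (.inl (.inr i))) = v.1 (.inr 0) * v.1 (.inr 0) + v.1 (.inr 0) * v.1 (.inr 1) + v.1 (.inr 1) * v.1 (.inr 1)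
        exact CharTwo.add_eq_zero.1 h⟩⟩
      invFun := fun x => ⟨Sum.elim x.2.1 ![x.1.1, x.1.2], by
        rw [Bm_apply]
        exact CharTwo.add_eq_zero.2 x.2.2⟩
      left_inv := by
        rintro ⟨v, hv⟩
        apply Subtype.ext
        funext i
        rcases i with i | i
        · rfl
        · fin_cases i <;> rfl
      right_inv := by
        rintro ⟨⟨a, b⟩, ⟨u, hu⟩⟩
        rfl }
  have hsum : Nat.card {v : (Fin m ⊕ Fin m) ⊕ Fin 2 → ZMod 2 // Bm m v v = 0} = ∑ w : ZMod 2 × ZMod 2, N (q2 w) := by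
    rw [Nat.card_congr e, Nat.card_sigma]
  have hu : (Finset.univ : Finset (ZMod 2)) = {0, 1} := by decide
  have h2 : ∑ w : ZMod 2 × ZMod 2, N (q2 w) = N 0 + 3 * N 1 := by
    rw [Fintype.sum_prod_type, hu, Finset.sum_pair (by decide), Finset.sum_pair (by decide), Finset.sum_pair (by decide)]
    have e1 : q2 (0, 0) = 0 := by decide
    have e2 : q2 (0, 1) = 1 := by decide
    have e3 : q2 (1, 0) = 1 := by decide
    have e4 : q2 (1, 1) = 1 := by decide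
    rw [e1, e2, e3, e4]
    ring
  have h3 : N 0 + N 1 = 2 ^ (2 * m) := by
    have h4 : Nat.card {v : Fin m ⊕ Fin m → ZMod 2 // Bp m v v = 0} + Nat.card {v : Fin m ⊕ Fin m → ZMod 2 // ¬ Bp m v v = 0} =
        Nat.card (Fin m ⊕ Fin m → ZMod 2) := by
      rw [← Nat.card_sum]
      exact Nat.card_congr (Equiv.sumCompl (fun v : Fin m ⊕ Fin m → ZMod 2 => Bp m v v = 0))
    have h5 : Nat.card {v : Fin m ⊕ Fin m → ZMod 2 // ¬ Bp m v v = 0} = N 1 := by
      apply Nat.card_congr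
      refine Equiv.subtypeEquivRight (fun v => ?_)
      have : ∀ c : ZMod 2, ¬ c = 0 ↔ c = 1 := by decide
      exact this _
    rw [h5, card_V, Fintype.card_sum, Fintype.card_fin] at h4
    rw [two_mul]
    exact h4
  rw [hsum, h2]
  show N 0 + 3 * N 1 = N 0 + 3 * (2 ^ (2 * m) - N 0)
  omega

theorem cnt_Bm (m : ℕ) : cnt (Ex (Bm m)) = 2 ^ (2 * (m + 1)) - 2 ^ (m + 1) := by
  rw [cnt_model, Zm]
  have h1 := two_Zp m
  have h2 : 2 ^ m ≤ 2 ^ (2 * m) := Nat.pow_le_pow_right (by norm_num) (by omega)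
  have h3 : 2 ^ (2 * (m + 1)) = 4 * 2 ^ (2 * m) := by ring
  have h4 : 2 ^ (m + 1) = 2 * 2 ^ m := by ring
  omega

theorem xsp_minus (m : ℕ) : IsExtraspecial 2 (Ex (Bm m)) ∧ Nat.card (Ex (Bm m)) = 2 ^ (2 * (m + 1) + 1) ∧
    ¬ Plus (Ex (Bm m)) (m + 1) := by
  haveI : Fact (Nat.Prime 2) := ⟨Nat.prime_two⟩
  haveI : Nonempty ((Fin m ⊕ Fin m) ⊕ Fin 2) := ⟨Sum.inr 0⟩
  have h1 : IsExtraspecial 2 (Ex (Bm m)) := extraspecial (Bm_nondeg m)
  have h2 : Nat.card (Ex (Bm m)) = 2 ^ (2 * (m + 1) + 1) := by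
    rw [Ex.card, card_V, Nat.card_zmod, Fintype.card_sum, Fintype.card_sum, Fintype.card_fin, Fintype.card_fin, ← pow_succ]
    congr 1; omega
  refine ⟨h1, h2, fun hP => ?_⟩
  have h3 := cnt_plus h1 h2 hP
  rw [cnt_Bm] at h3
  have : 0 < 2 ^ (m + 1) := by positivity
  omega

/-- every extraspecial 2-group is a model -/
theorem iso_model {E : Type*} [Group E] [Finite E] {n : ℕ} (hE : IsExtraspecial 2 E) (hcard : Nat.card E = 2 ^ (2 * n + 1)) :
    (Plus E n → Nonempty (E ≃* Ex (Bp n))) ∧ (¬ Plus E n → Nonempty (E ≃* Ex (Bm (n - 1)))) := by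
  obtain ⟨m, rfl⟩ : ∃ m, n = m + 1 := ⟨n - 1, by have := one_le hE hcard; omega⟩
  constructor
  · intro h
    obtain ⟨h1, h2, h3⟩ := xsp_plus (m + 1) (by omega)
    exact iso_of_plus m E _ hE h1 hcard h2 ⟨fun _ => h3, fun _ => h⟩
  · intro h
    obtain ⟨h1, h2, h3⟩ := xsp_minus m
    exact iso_of_plus m E _ hE h1 hcard h2 ⟨fun h' => absurd h' h, fun h' => absurd h' h3⟩

theorem cnt_minus {E : Type*} [Group E] [Finite E] {n : ℕ} (hE : IsExtraspecial 2 E) (hcard : Nat.card E = 2 ^ (2 * n + 1))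
    (hP : ¬ Plus E n) : cnt E = 2 ^ (2 * n) - 2 ^ n := by
  obtain ⟨m, rfl⟩ : ∃ m, n = m + 1 := ⟨n - 1, by have := one_le hE hcard; omega⟩
  obtain ⟨e⟩ := (iso_model hE hcard).2 hP
  rw [cnt_congr e]
  exact cnt_Bm m

end Cfsg.Agent.H19.XspC
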