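import Cfsg.Statements.S5395
import Cfsg.Agent.H28_Xsp

set_option autoImplicit false
open Cfsg

namespace Cfsg.Agent.S5395

open Cfsg.Agent.H28.Xsp

/-- For a finite extraspecial 2-group E, an automorphism of E that induces the identity on E modulo its centre is inner (so these automorphisms form exactly the inner automorphism group, an elementary abelian 2-group of order |E|/2). -/
theorem result {E : Type*} [Group E] [Finite E] (hE : Cfsg.IsExtraspecial 2 E) (φ : E ≃* E) (hφ : ∀ x : E, φ x * x⁻¹ ∈ Subgroup.center E) : ∃ g : E, ∀ x : E, φ x = g * x * g⁻¹ := by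
  obtain ⟨z, h⟩ := Xsp.top_of_isExtraspecial hE
  have hcen : ∀ x ∈ Subgroup.center E, x = 1 ∨ x = z := by
    intro x hx
    apply h.cen x (Subgroup.mem_top x)
    intro y _
    exact (Subgroup.mem_center_iff.mp hx y).symm
  have hzc : ∀ x : E, z * x = x * z := fun x => h.zc x (Subgroup.mem_top x)
  have hφ' : ∀ x, φ x = x ∨ φ x = z * x := by
    intro x
    rcases hcen _ (hφ x) with h1 | h1
    · left; exact mul_inv_eq_one.mp h1
    · right; rw [← h1, inv_mul_cancel_right]
  have hφz : φ z = z := by
    rcases hφ' z with h1 | h1
    · exact h1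
    · rw [h.sq] at h1
      exact absurd ((map_eq_one_iff φ φ.injective).mp h1) h.ne
  let T : Subgroup E :=
    { carrier := {x | φ x = x}
      mul_mem' := by
        intro a b ha hb
        simp only [Set.mem_setOf_eq, map_mul] at *
        rw [ha, hb]
      one_mem' := by simp
      inv_mem' := by
        intro a ha
        simp only [Set.mem_setOf_eq, map_inv] at *
        rw [ha] }
  have hT : ∀ x, x ∈ T ↔ φ x = x := fun x => Iff.rfl
  have hzT : z ∈ T := hφz
  by_cases htop : T = ⊤
  · refine ⟨1, fun x => ?_⟩
    have : x ∈ T := htop ▸ Subgroup.mem_top x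
    rw [(hT x).mp this]; group
  · have hd := h.duality hzT le_top
    have hlt : Nat.card T < Nat.card E := by
      apply lt_of_le_of_ne (Subgroup.card_le_card_group T)
      intro h1
      exact htop (Subgroup.eq_top_of_card_eq T h1)
    have hlt' : 2 < Nat.card ((⊤ : Subgroup E) ⊓ Subgroup.centralizer (T : Set E) : Subgroup E) := by
      rw [Subgroup.card_top] at hd
      by_contra hcon
      push Not at hcon
      have : Nat.card T * Nat.card ((⊤ : Subgroup E) ⊓ Subgroup.centralizer (T : Set E) : Subgroup E)
          ≤ Nat.card T * 2 := Nat.mul_le_mul_left _ hcon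
      omega
    have hex : ∃ g ∈ ((⊤ : Subgroup E) ⊓ Subgroup.centralizer (T : Set E) : Subgroup E),
        g ∉ Subgroup.zpowers z := by
      by_contra hcon
      push Not at hcon
      have h1 : ((⊤ : Subgroup E) ⊓ Subgroup.centralizer (T : Set E) : Subgroup E) ≤ Subgroup.zpowers z := hcon
      have h2 := Nat.card_le_card_of_injective _ (Subgroup.inclusion_injective h1)
      rw [h.card_zpowers] at h2
      omega
    obtain ⟨g, hg, hgz⟩ := hex
    rw [Subgroup.mem_inf] at hg
    have hgT := Subgroup.mem_centralizer_iff.mp hg.2
    rw [mem_zpowers_of_sq h.sq] at hgz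
    push Not at hgz
    refine ⟨g, fun x => ?_⟩
    by_cases hx : x ∈ T
    · rw [(hT x).mp hx, ← hgT x hx, mul_inv_cancel_right]
    · have h1 : φ x = z * x := (hφ' x).resolve_left hx
      rw [h1]
      symm
      apply h.conj_eq_of_not_comm (Subgroup.mem_top _) (Subgroup.mem_top _)
      intro hgx
      obtain ⟨y, _, hy⟩ := h.exists_not_comm (Subgroup.mem_top g) hgz.1 hgz.2
      have hyT : y ∉ T := fun hyT => hy (hgT y hyT).symm
      -- x * y ∈ T
      have hxy : x * y ∈ T := by
        rw [hT, map_mul, h1, (hφ' y).resolve_left hyT]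
        calc z * x * (z * y) = (z * x) * z * y := by group
          _ = (x * z) * z * y := by rw [hzc]
          _ = x * (z * z) * y := by group
          _ = x * y := by rw [h.sq, mul_one]
      have h2 := hgT _ hxy
      apply hy
      have h3 : x * (g * y) = x * (y * g) := by
        calc x * (g * y) = (x * g) * y := by group
          _ = (g * x) * y := by rw [hgx]
          _ = g * (x * y) := by group
          _ = (x * y) * g := h2.symm
          _ = _ := by group
      exact mul_left_cancel h3

end Cfsg.Agent.S5395
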