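import Cfsg.Agent.H19_XspC
import Cfsg.Agent.S5395
import Cfsg.Agent.H5_Concrete
import Cfsg.Prelude.Def_KGroupFacts

set_option autoImplicit false

/-! Outer automorphisms of extraspecial 2-groups. -/

namespace Cfsg.Agent.H19.XspD

open Subgroup Cfsg XspA XspB XspC

section half

variable {V : Type*} [AddCommGroup V] [Module (ZMod 2) V] [Finite V]

theorem exists_half (c : LinearMap.BilinForm (ZMod 2) V) (hc : ∀ v, c v v = 0) :
    ∃ s : V → ZMod 2, ∀ v w, s (v + w) = s v + s w + c v w := by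
  classical
  have hsymm : ∀ v w, c v w = c w v := by
    intro v w
    have h := hc (v + w)
    rw [map_add, map_add, LinearMap.add_apply, LinearMap.add_apply, hc, hc, zero_add, add_zero] at h
    exact (CharTwo.add_eq_zero.1 h).symm
  let b := Module.finBasis (ZMod 2) V
  let r : V → Fin (Module.finrank (ZMod 2) V) → ZMod 2 := fun v i => b.repr v i
  have hr : ∀ v w i, r (v + w) i = r v i + r w i := fun v w i => by simp [r]
  have hcv : ∀ v w, c v w = ∑ i, ∑ j, r v i * r w j * c (b i) (b j) := by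
    intro v w
    have h1 : c v w = c (∑ i, r v i • b i) w := by rw [show (∑ i, r v i • b i) = v from b.sum_repr v]
    rw [h1, map_sum, LinearMap.sum_apply]
    apply Finset.sum_congr rfl
    intro i _
    have h2 : c (r v i • b i) w = c (r v i • b i) (∑ j, r w j • b j) := by rw [show (∑ j, r w j • b j) = w from b.sum_repr w]
    rw [h2, map_sum]
    apply Finset.sum_congr rfl
    intro j _
    rw [map_smul, map_smul, LinearMap.smul_apply, smul_eq_mul, smul_eq_mul]
    ring
  refine ⟨fun v => ∑ i, ∑ j, if i < j then r v i * r v j * c (b i) (b j) else 0, ?_⟩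
  intro v w
  show (∑ i, ∑ j, if i < j then r (v + w) i * r (v + w) j * c (b i) (b j) else 0) =
    (∑ i, ∑ j, if i < j then r v i * r v j * c (b i) (b j) else 0) + (∑ i, ∑ j, if i < j then r w i * r w j * c (b i) (b j) else 0) + c v w
  have h1 : (∑ i, ∑ j, if i < j then r (v + w) i * r (v + w) j * c (b i) (b j) else 0) =
      (∑ i, ∑ j, if i < j then r v i * r v j * c (b i) (b j) else 0) + (∑ i, ∑ j, if i < j then r w i * r w j * c (b i) (b j) else 0) +
      ((∑ i, ∑ j, if i < j then r v i * r w j * c (b i) (b j) else 0) + (∑ i, ∑ j, if i < j then r w i * r v j * c (b i) (b j) else 0)) := by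
    rw [← Finset.sum_add_distrib, ← Finset.sum_add_distrib, ← Finset.sum_add_distrib]
    apply Finset.sum_congr rfl
    intro i _
    rw [← Finset.sum_add_distrib, ← Finset.sum_add_distrib, ← Finset.sum_add_distrib]
    apply Finset.sum_congr rfl
    intro j _
    split_ifs
    · rw [hr, hr]; ring
    · simp
  rw [h1]
  congr 1
  have h2 : (∑ i, ∑ j, if i < j then r w i * r v j * c (b i) (b j) else 0) =
      (∑ i, ∑ j, if j < i then r v i * r w j * c (b i) (b j) else 0) := by
    rw [Finset.sum_comm]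
    apply Finset.sum_congr rfl
    intro i _
    apply Finset.sum_congr rfl
    intro j _
    split_ifs
    · rw [hsymm (b j) (b i)]; ring
    · rfl
  rw [h2, hcv, ← Finset.sum_add_distrib]
  apply Finset.sum_congr rfl
  intro i _
  rw [← Finset.sum_add_distrib]
  apply Finset.sum_congr rfl
  intro j _
  rcases lt_trichotomy i j with h | h | h
  · rw [if_pos h, if_neg (not_lt.2 h.le), add_zero]
  · subst h
    rw [hc]; simp
  · rw [if_neg (not_lt.2 h.le), if_pos h, zero_add]

end half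

section

variable {V : Type*} [AddCommGroup V] [Module (ZMod 2) V] [Finite V] {B : LinearMap.BilinForm (ZMod 2) V}

/-- the isometries of the quadratic form of `B` -/
def Oq (B : LinearMap.BilinForm (ZMod 2) V) : Subgroup (V ≃ₗ[ZMod 2] V) where
  carrier := {f | ∀ v, B (f v) (f v) = B v v}
  one_mem' := fun v => rfl
  mul_mem' := fun {f g} hf hg v => by
    show B (f (g v)) (f (g v)) = B v v
    rw [hf, hg]
  inv_mem' := fun {f} hf v => by
    have := hf (f⁻¹ v)
    have h2 : f (f⁻¹ v) = v := by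
      show (f * f⁻¹) v = v
      rw [mul_inv_cancel]; rfl
    rw [h2] at this
    exact this.symm

variable (hB : ∀ v, (∀ w, B v w = B w v) → v = 0)
include hB

theorem v_center (α : MulAut (Ex B)) (a : ZMod 2) : (α ⟨0, a⟩).v = 0 := by
  rw [← Ex.mem_center_iff' hB]
  have h1 : (⟨0, a⟩ : Ex B) ∈ center (Ex B) := (Ex.mem_center_iff' hB _).2 rfl
  rw [mem_center_iff] at h1 ⊢
  intro y
  obtain ⟨y', rfl⟩ := α.surjective y
  rw [← map_mul, ← map_mul, h1]

theorem v_eq (α : MulAut (Ex B)) (x : Ex B) : (α x).v = (α ⟨x.v, 0⟩).v := by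
  have h : x = ⟨x.v, 0⟩ * ⟨0, x.a⟩ := by
    ext <;> simp
  conv_lhs => rw [h]
  rw [map_mul, Ex.mul_v, v_center hB, add_zero]

/-- the induced linear automorphism -/
def L (α : MulAut (Ex B)) : V ≃ₗ[ZMod 2] V :=
  let f : V ≃+ V :=
    { toFun := fun v => (α ⟨v, 0⟩).v
      invFun := fun v => (α⁻¹ ⟨v, 0⟩).v
      left_inv := fun v => by
        have h1 := v_eq hB α⁻¹ (α ⟨v, 0⟩)
        show (α⁻¹ ⟨(α ⟨v, 0⟩).v, 0⟩).v = v
        rw [← h1]
        rw [MulAut.inv_apply_self]
      right_inv := fun v => by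
        have h1 := v_eq hB α (α⁻¹ ⟨v, 0⟩)
        show (α ⟨(α⁻¹ ⟨v, 0⟩).v, 0⟩).v = v
        rw [← h1]
        rw [MulAut.apply_inv_self]
      map_add' := fun v w => by
        have h1 : (⟨v, 0⟩ : Ex B) * ⟨w, 0⟩ = ⟨v + w, B v w⟩ := by
          ext <;> simp
        have h2 := v_eq hB α ⟨v + w, B v w⟩
        show (α ⟨v + w, 0⟩).v = (α ⟨v, 0⟩).v + (α ⟨w, 0⟩).v
        rw [← Ex.mul_v, ← map_mul, h1, h2] }
  { f with map_smul' := fun c x => ZMod.map_smul f.toAddMonoidHom c x }

theorem L_apply (α : MulAut (Ex B)) (v : V) : L hB α v = (α ⟨v, 0⟩).v := rfl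

def LHom : MulAut (Ex B) →* (V ≃ₗ[ZMod 2] V) where
  toFun := L hB
  map_one' := by
    ext v
    rfl
  map_mul' α β := by
    ext v
    show (α (β ⟨v, 0⟩)).v = (α ⟨(β ⟨v, 0⟩).v, 0⟩).v
    rw [v_eq hB α (β ⟨v, 0⟩)]

theorem fix_center (α : MulAut (Ex B)) (a : ZMod 2) : α ⟨0, a⟩ = ⟨0, a⟩ := by
  have h1 := v_center hB α a
  have h0 : ∀ c : ZMod 2, c = 0 ∨ c = 1 := fun c => by revert c; exact (by decide)
  rcases h0 a with rfl | rfl
  · exact map_one α
  · rcases h0 (α ⟨0, 1⟩).a with h | h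
    · exfalso
      have h2 : α ⟨0, 1⟩ = 1 := Ex.ext h1 h
      have h3 : (⟨0, 1⟩ : Ex B) = 1 := α.injective (h2.trans (map_one α).symm)
      have h4 : (1 : ZMod 2) = 0 := congrArg Ex.a h3
      exact absurd h4 (by decide)
    · exact Ex.ext h1 h

theorem L_mem (α : MulAut (Ex B)) : LHom hB α ∈ Oq B := by
  intro v
  show B (L hB α v) (L hB α v) = B v v
  have hsq : ∀ x : Ex B, x * x = ⟨0, B x.v x.v⟩ := by
    intro x
    have hv : x.v + x.v = 0 := by
      rw [← two_nsmul, ← Nat.cast_smul_eq_nsmul (ZMod 2)]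
      exact zero_smul _ _
    ext
    · exact hv
    · rw [Ex.mul_a, CharTwo.add_self_eq_zero, zero_add]
  have h1 := congrArg α (hsq ⟨v, 0⟩)
  rw [map_mul, hsq, fix_center hB] at h1
  exact congrArg Ex.a h1

/-- the map onto the orthogonal group -/
def Φ : MulAut (Ex B) →* Oq B := (LHom hB).codRestrict (Oq B) (L_mem hB)

theorem Φ_surj : Function.Surjective (Φ hB) := by
  rintro ⟨g, hg⟩
  obtain ⟨s, hs⟩ := exists_half ((B.compl₁₂ (g : V →ₗ[ZMod 2] V) (g : V →ₗ[ZMod 2] V)) + B) (by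
    intro v
    show B (g v) (g v) + B v v = 0
    rw [hg v, CharTwo.add_self_eq_zero])
  have hs' : ∀ v w, s (v + w) = s v + s w + (B (g v) (g w) + B v w) := hs
  let f : Ex B →* Ex B :=
    { toFun := fun x => ⟨g x.v, x.a + s x.v⟩
      map_one' := by
        have h0 : s 0 = 0 := by
          have := hs' 0 0
          simp only [add_zero, map_zero] at this
          rw [CharTwo.add_self_eq_zero] at this
          exact this
        ext
        · simp
        · simp [h0]
      map_mul' := fun x y => by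
        ext
        · simp
        · show x.a + y.a + B x.v y.v + s (x.v + y.v) = x.a + s x.v + (y.a + s y.v) + B (g x.v) (g y.v)
          rw [hs']
          have h2 : B x.v y.v + B x.v y.v = 0 := CharTwo.add_self_eq_zero _
          linear_combination h2 }
  have hf : Function.Injective f := by
    rw [injective_iff_map_eq_one]
    intro x hx
    have h1 : g x.v = 0 := congrArg Ex.v hx
    have h2 : x.v = 0 := by rw [← map_zero g] at h1; exact g.injective h1
    have h3 : x.a + s x.v = 0 := congrArg Ex.a hx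
    have h4 : s 0 = 0 := by
      have := congrArg Ex.a (map_one f)
      have h5 : (0 : ZMod 2) + s 0 = 0 := this
      rwa [zero_add] at h5
    rw [h2, h4, add_zero] at h3
    exact Ex.ext h2 h3
  have hfb : Function.Bijective f := Finite.injective_iff_bijective.1 hf
  refine ⟨MulEquiv.ofBijective f hfb, ?_⟩
  apply Subtype.ext
  ext v
  rfl

theorem Φ_ker [Nontrivial V] : (Φ hB).ker = Inn (Ex B) := by
  haveI : Fact (Nat.Prime 2) := ⟨Nat.prime_two⟩
  have hx := extraspecial (p := 2) hB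
  ext α
  rw [MonoidHom.mem_ker]
  constructor
  · intro h
    have h1 : ∀ v, (α ⟨v, 0⟩).v = v := fun v => by
      have := congrArg (fun f : Oq B => (f : V ≃ₗ[ZMod 2] V) v) h
      exact this
    obtain ⟨g, hg⟩ := Cfsg.Agent.S5395.result hx α (fun x => by
      rw [Ex.mem_center_iff' hB, Ex.mul_v, v_eq hB, h1, Ex.inv_v, add_neg_cancel])
    refine ⟨g, ?_⟩
    ext x
    · rw [MulAut.conj_apply, ← hg x]
    · rw [MulAut.conj_apply, ← hg x]
  · rintro ⟨g, rfl⟩
    apply Subtype.ext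
    ext v
    show (MulAut.conj g ⟨v, 0⟩).v = v
    rw [MulAut.conj_apply]
    simp

theorem out_equiv [Nontrivial V] : Nonempty (Out (Ex B) ≃* Oq B) :=
  ⟨(QuotientGroup.quotientMulEquivOfEq (Φ_ker hB).symm).trans (QuotientGroup.quotientKerEquivOfSurjective (Φ hB) (Φ_surj hB))⟩

end

theorem oq_equiv {ι : Type} [Fintype ι] [DecidableEq ι] (B : LinearMap.BilinForm (ZMod 2) (ι → ZMod 2))
    (Q : (ι → ZMod 2) → ZMod 2) (hQ : ∀ v, B v v = Q v) : Nonempty (Oq B ≃* isometryGroup (ZMod 2) Q) := by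
  refine ⟨(Cfsg.Agent.H5.Conc.subEquiv (Cfsg.Agent.H5.Conc.glEquiv ι (ZMod 2)) (isometryGroup (ZMod 2) Q) (Oq B) ?_).symm⟩
  intro g
  constructor
  · intro h v
    rw [hQ, hQ]
    exact h v v
  · intro h u v
    have := h u
    rw [hQ, hQ] at this
    exact this

theorem out_congr {E F : Type*} [Group E] [Group F] (e : E ≃* F) : Nonempty (Out E ≃* Out F) := by
  refine ⟨QuotientGroup.congr (Inn E) (Inn F) (MulAut.congr e) ?_⟩
  ext φ
  constructor
  · rintro ⟨_, ⟨g, rfl⟩, rfl⟩
    refine ⟨e g, ?_⟩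
    ext x
    show e g * x * (e g)⁻¹ = e (g * e.symm x * g⁻¹)
    simp
  · rintro ⟨g, rfl⟩
    refine ⟨MulAut.conj (e.symm g), ⟨_, rfl⟩, ?_⟩
    ext x
    show e (e.symm g * e.symm x * (e.symm g)⁻¹) = g * x * g⁻¹
    simp

theorem out_plus {E : Type*} [Group E] [Finite E] {n : ℕ} (hE : IsExtraspecial 2 E) (hcard : Nat.card E = 2 ^ (2 * n + 1))
    (hP : Plus E n) : Nonempty (Out E ≃* isometryGroup (ZMod 2) (quadFormPlus n (ZMod 2))) := by
  have hn := one_le hE hcard
  haveI : Nonempty (Fin n ⊕ Fin n) := ⟨Sum.inl ⟨0, by omega⟩⟩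
  obtain ⟨e⟩ := (iso_model hE hcard).1 hP
  obtain ⟨e1⟩ := out_congr e
  obtain ⟨e2⟩ := out_equiv (Bp_nondeg n)
  obtain ⟨e3⟩ := oq_equiv (Bp n) (quadFormPlus n (ZMod 2)) (Bp_self n)
  exact ⟨(e1.trans e2).trans e3⟩

theorem out_minus {E : Type*} [Group E] [Finite E] {n : ℕ} (hE : IsExtraspecial 2 E) (hcard : Nat.card E = 2 ^ (2 * n + 1))
    (hP : ¬ Plus E n) : Nonempty (Out E ≃* isometryGroup (ZMod 2) (quadFormMinus (n - 1) (ZMod 2) 1 1)) := by
  haveI : Nonempty ((Fin (n - 1) ⊕ Fin (n - 1)) ⊕ Fin 2) := ⟨Sum.inr 0⟩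
  obtain ⟨e⟩ := (iso_model hE hcard).2 hP
  obtain ⟨e1⟩ := out_congr e
  obtain ⟨e2⟩ := out_equiv (Bm_nondeg (n - 1))
  obtain ⟨e3⟩ := oq_equiv (Bm (n - 1)) (quadFormMinus (n - 1) (ZMod 2) 1 1) (Bm_self (n - 1))
  exact ⟨(e1.trans e2).trans e3⟩

end Cfsg.Agent.H19.XspD
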