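import Mathlib
import Cfsg.Prelude.Def_Transfer
import Cfsg.Prelude.Def_Solvable
import Cfsg.Agent.H28_Xsp
import Cfsg.Agent.H19_Transfer

/-! A group `G` with `H = C_G(z)`, `E = O₂(H)` extraspecial and `C_G(E) ≤ E` (helper19). -/

set_option autoImplicit false

namespace Cfsg.Agent.H19.XspH

open Cfsg Cfsg.Agent.H28.Xsp

variable {G : Type*} [Group G]

/-- `O²(G) = G` gives no subgroup of index two. -/
theorem index_ne_two (hres : pResidual 2 G = ⊤) (K : Subgroup G) : K.index ≠ 2 := by
  intro h
  have h1 : pResidual 2 G ≤ K := by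
    unfold pResidual
    rw [Subgroup.closure_le]
    intro g hg
    have hg' : Nat.Coprime (orderOf g) 2 := hg
    have h2 : Odd (orderOf g) := Nat.coprime_two_right.1 hg'
    rw [SetLike.mem_coe, ← Transfer.sgn_eq_one_iff h]
    have h3 : (Transfer.sgn K h g) ^ (orderOf g) = 1 := by
      rw [← map_pow, pow_orderOf_eq_one, map_one]
    rcases Int.units_eq_one_or (Transfer.sgn K h g) with h4 | h4
    · exact h4
    · rw [h4, h2.neg_one_pow] at h3
      exact absurd h3 (by decide)
  rw [hres, top_le_iff] at h1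
  rw [h1, Subgroup.index_top] at h
  omega

/-- the basic configuration -/
structure Conf (E : Subgroup G) (z : G) : Prop where
  xsp : Xsp E z
  nc : ∃ x ∈ E, ∃ y ∈ E, x * y ≠ y * x
  cent : Subgroup.centralizer (E : Set G) ≤ E
  norm : ∀ c, c * z = z * c → ∀ y ∈ E, c * y * c⁻¹ ∈ E

theorem conf_of [Finite G] {z : G} {E : Subgroup G}
    (hE : E = (Cfsg.pCore 2 ↥(Subgroup.centralizer ({z} : Set G))).map (Subgroup.centralizer ({z} : Set G)).subtype)
    (hz : orderOf z = 2)
    (hext : Cfsg.IsExtraspecial 2 ↥E) (hcent : Subgroup.centralizer (E : Set G) ≤ E) : Conf E z := by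
  have hEH : E ≤ Subgroup.centralizer ({z} : Set G) := by
    rw [hE]; exact Subgroup.map_subtype_le _
  have hcz : ∀ y ∈ E, y * z = z * y := by
    intro y hy
    exact Subgroup.mem_centralizer_singleton_iff.1 (hEH hy)
  obtain ⟨z', hz'⟩ := Xsp.exists_of_isExtraspecial hext
  have hzE : z ∈ E := by
    apply hcent
    rw [Subgroup.mem_centralizer_iff]
    intro y hy
    exact hcz y hy
  have hzz : z = z' := by
    rcases hz'.cen z hzE (fun y hy => (hcz y hy).symm) with h | h
    · rw [h, orderOf_one] at hz; omega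
    · exact h
  subst hzz
  refine ⟨hz', Xsp.not_comm_of_isExtraspecial hext, hcent, ?_⟩
  intro c hc y hy
  have hn : (Cfsg.pCore 2 ↥(Subgroup.centralizer ({z} : Set G))).Normal := by
    infer_instance
  rw [hE] at hy ⊢
  obtain ⟨w, hw, rfl⟩ := hy
  refine ⟨⟨c, Subgroup.mem_centralizer_singleton_iff.2 hc⟩ * w * (⟨c, Subgroup.mem_centralizer_singleton_iff.2 hc⟩)⁻¹, hn.conj_mem w hw _, rfl⟩

namespace Conf

variable {E : Subgroup G} {z : G}

/-- An element commuting with a hyperplane `C_E(x)` of `E` and with `a ∉ C_E(x)` is in `{1, z}`. -/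
theorem eq_of_comm (h : Conf E z) {x a w : G} (hx : x ∈ E) (ha : a ∈ E) (hax : a * x ≠ x * a)
    (hw : ∀ b ∈ E, b * x = x * b → w * b = b * w) (hwa : w * a = a * w) : w = 1 ∨ w = z := by
  have hall : ∀ y ∈ E, y * w = w * y := by
    intro y hy
    by_cases hyx : y * x = x * y
    · exact (hw y hy hyx).symm
    · have h1 : x * (a⁻¹ * y) = (a⁻¹ * y) * x := by
        apply h.xsp.not_comm_mul hx (inv_mem ha) hy
        · intro h2
          apply hax
          have : a * (x * a⁻¹) * a = a * (a⁻¹ * x) * a := by rw [h2]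
          simpa [mul_assoc] using this
        · exact fun h2 => hyx h2.symm
      have h2 := hw (a⁻¹ * y) (mul_mem (inv_mem ha) hy) h1.symm
      calc y * w = a * ((a⁻¹ * y) * w) := by group
        _ = a * (w * (a⁻¹ * y)) := by rw [h2]
        _ = (a * w) * a⁻¹ * y := by group
        _ = (w * a) * a⁻¹ * y := by rw [hwa]
        _ = w * y := by group
  have hwE : w ∈ E := h.cent (Subgroup.mem_centralizer_iff.2 hall)
  exact h.xsp.cen w hwE (fun y hy => (hall y hy).symm)

/-- `C_G(C_E(x)) = ⟨x, z⟩` for an involution `x ∈ E`, `x ≠ z`. -/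
theorem cent_cent (h : Conf E z) {x : G} (hx : x ∈ E) (hx1 : x ≠ 1) (hxz : x ≠ z) (hxx : x * x = 1) {c : G}
    (hc : ∀ b ∈ E, b * x = x * b → c * b = b * c) : c = 1 ∨ c = z ∨ c = x ∨ c = z * x := by
  obtain ⟨a, ha, hax'⟩ := h.xsp.exists_not_comm hx hx1 hxz
  have hax : a * x ≠ x * a := fun h => hax' h.symm
  have hcz : c * z = z * c := hc z h.xsp.mem (h.xsp.zc x hx)
  have hE1 : c * a * c⁻¹ ∈ E := h.norm c hcz a ha
  have hzz := h.xsp.sq
  -- d
  obtain ⟨d, hd⟩ : ∃ d, d = a⁻¹ * (c * a * c⁻¹) := ⟨_, rfl⟩
  have hdE : d ∈ E := by rw [hd]; exact mul_mem (inv_mem ha) hE1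
  have had : c * a * c⁻¹ = a * d := by rw [hd]; group
  have hca : c * a = a * d * c := by rw [← had]; group
  have hzc : ∀ y ∈ E, z * y = y * z := h.xsp.zc
  have hdb : ∀ b ∈ E, b * x = x * b → d * b = b * d := by
    intro b hb hbx
    have h1 : c * b = b * c := hc b hb hbx
    have h1' : c * b * c⁻¹ = b := by rw [h1, mul_inv_cancel_right]
    have h2 : c * (a * b * a⁻¹) * c⁻¹ = a * b * a⁻¹ := by
      rcases h.xsp.conj_eq ha hb with h3 | h3
      · rw [h3, h1']
      · rw [h3]
        calc c * (z * b) * c⁻¹ = (c * z) * b * c⁻¹ := by group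
          _ = z * (c * b * c⁻¹) := by rw [hcz]; group
          _ = z * b := by rw [h1']
    have h3 : (a * d) * b * (a * d)⁻¹ = a * b * a⁻¹ := by
      rw [← had]
      calc (c * a * c⁻¹) * b * (c * a * c⁻¹)⁻¹ = c * a * (c⁻¹ * b * c) * a⁻¹ * c⁻¹ := by group
        _ = c * a * b * a⁻¹ * c⁻¹ := by
          have : c⁻¹ * b * c = b := by rw [mul_assoc, ← h1]; group
          rw [this]
        _ = c * (a * b * a⁻¹) * c⁻¹ := by group
        _ = _ := h2
    have h4 : d * b * d⁻¹ = b := by
      have : a * (d * b * d⁻¹) * a⁻¹ = a * b * a⁻¹ := by rw [← h3]; group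
      simpa using this
    calc d * b = d * b * d⁻¹ * d := by group
      _ = b * d := by rw [h4]
  have hxa : x * a = z * (a * x) := (h.xsp.comm x hx a ha).resolve_left hax'
  have hxinv : x⁻¹ = x := inv_eq_of_mul_eq_one_left hxx
  have hxcomm : ∀ b ∈ E, b * x = x * b → x * b = b * x := fun b _ hb => hb.symm
  -- d ∈ {1, z, x, zx}
  by_cases hda : d * a = a * d
  · rcases h.eq_of_comm hx ha hax hdb hda with h1 | h1
    · -- c centralizes E
      rw [h1, mul_one] at hca
      rcases h.eq_of_comm hx ha hax hc hca with h2 | h2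
      · exact Or.inl h2
      · exact Or.inr (Or.inl h2)
    · rw [h1] at hca
      have h3 : (c * x) * a = a * (c * x) := by
        calc (c * x) * a = c * (x * a) := by group
          _ = (c * z) * a * x := by rw [hxa]; group
          _ = z * (c * a) * x := by rw [hcz]; group
          _ = z * (a * z * c) * x := by rw [hca]
          _ = (z * a) * z * c * x := by group
          _ = (a * z) * z * c * x := by rw [hzc a ha]
          _ = a * (z * z) * c * x := by group
          _ = a * (c * x) := by rw [hzz]; group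
      have h4 : ∀ b ∈ E, b * x = x * b → (c * x) * b = b * (c * x) := by
        intro b hb hbx
        calc (c * x) * b = c * (x * b) := by group
          _ = (c * b) * x := by rw [← hbx]; group
          _ = b * (c * x) := by rw [hc b hb hbx]; group
      rcases h.eq_of_comm hx ha hax h4 h3 with h2 | h2
      · right; right; left
        rw [mul_eq_one_iff_eq_inv, hxinv] at h2
        exact h2
      · right; right; right
        rw [← h2, mul_assoc, hxx, mul_one]
  · exfalso
    -- d x commutes with a
    have h1 := h.xsp.not_comm_mul ha hdE hx (fun h => hda h.symm) hax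
    have h2 : ∀ b ∈ E, b * x = x * b → (d * x) * b = b * (d * x) := by
      intro b hb hbx
      calc (d * x) * b = d * (x * b) := by group
        _ = (d * b) * x := by rw [← hbx]; group
        _ = b * (d * x) := by rw [hdb b hb hbx]; group
    have hdd : d * d = 1 := by
      rcases h.eq_of_comm hx ha hax h2 h1.symm with h3 | h3
      · rw [mul_eq_one_iff_eq_inv, hxinv] at h3
        rw [h3, hxx]
      · have h4 : d = z * x := by rw [← h3, mul_assoc, hxx, mul_one]
        rw [h4]
        calc z * x * (z * x) = z * (x * z) * x := by group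
          _ = (z * z) * (x * x) := by rw [← hzc x hx]; group
          _ = 1 := by rw [hzz, hxx, one_mul]
    have hda' : d * a = z * (a * d) := (h.xsp.comm d hdE a ha).resolve_left hda
    have h5 : (c * a * c⁻¹) * (c * a * c⁻¹) = a * a := by
      rcases h.xsp.sqr a ha with h6 | h6
      · calc (c * a * c⁻¹) * (c * a * c⁻¹) = c * (a * a) * c⁻¹ := by group
          _ = a * a := by rw [h6]; group
      · calc (c * a * c⁻¹) * (c * a * c⁻¹) = c * (a * a) * c⁻¹ := by group
          _ = a * a := by rw [h6, hcz]; group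
    rw [had] at h5
    have h6 : a * d * (a * d) = z * (a * a) := by
      calc a * d * (a * d) = a * (d * a) * d := by group
        _ = (a * z) * a * (d * d) := by rw [hda']; group
        _ = z * (a * a) := by rw [hdd, ← hzc a ha]; group
    rw [h6] at h5
    exact h.xsp.ne (mul_eq_right.1 h5)

end Conf

end Cfsg.Agent.H19.XspH
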