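import Mathlib
import Cfsg.Agent.H19_LevelB
import Cfsg.Agent.H19_XspH
import Cfsg.Agent.H2_Extra2

/-! The transfer criterion for a group `G` with `H = C_G(z)`, `E = O₂(H)` extraspecial and `C_G(E) ≤ E` (helper19). -/

set_option autoImplicit false

namespace Cfsg.Agent.H19.XspH

open Cfsg Cfsg.Agent.H28.Xsp Cfsg.Agent.H19.Level

variable {G : Type*} [Group G]

/-- a two-element outside a subgroup of index two -/
theorem exists_two_element [Finite G] {H N : Subgroup G} (h2 : (N.subgroupOf H).index = 2) :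
    ∃ x ∈ H, x ∉ N ∧ ∃ k, orderOf x = 2 ^ k := by
  have h1 : ∃ y : H, y ∉ N.subgroupOf H := by
    by_contra hcon
    push Not at hcon
    have : N.subgroupOf H = ⊤ := by
      rw [eq_top_iff]; intro y _; exact hcon y
    rw [this, Subgroup.index_top] at h2
    omega
  obtain ⟨y, hy⟩ := h1
  obtain ⟨a, q, hq, hodd⟩ := Nat.exists_eq_pow_mul_and_not_dvd (orderOf_pos y).ne' 2 (by norm_num)
  have hqo : Odd q := by
    rw [← Nat.not_even_iff_odd, even_iff_two_dvd]; exact hq
  refine ⟨((y ^ q : H) : G), (y ^ q).2, ?_, a, ?_⟩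
  · intro hmem
    apply hy
    rw [← Transfer.sgn_eq_one_iff h2]
    have h3 : Transfer.sgn (N.subgroupOf H) h2 (y ^ q) = 1 := by
      rw [Transfer.sgn_eq_one_iff, Subgroup.mem_subgroupOf]; exact hmem
    rw [map_pow] at h3
    rcases Int.units_eq_one_or (Transfer.sgn (N.subgroupOf H) h2 y) with h4 | h4
    · exact h4
    · rw [h4, hqo.neg_one_pow] at h3
      exact absurd h3 (by decide)
  · rw [Subgroup.orderOf_coe, orderOf_pow_of_dvd hqo.pos.ne' ⟨2 ^ a, by rw [hodd]; ring⟩, hodd]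
    exact Nat.mul_div_cancel _ hqo.pos

theorem exists_T [Finite G] {z : G} {E : Subgroup G} (h : Conf E z) {N : Subgroup G}
    (h2 : (N.subgroupOf (Subgroup.centralizer ({z} : Set G))).index = 2) :
    ∃ (x : G) (T : Subgroup G), x ∈ T ∧ x ∉ N ∧ T ≤ Subgroup.centralizer ({z} : Set G) ∧ E ≤ T ∧ IsPGroup 2 T := by
  haveI : Fact (Nat.Prime 2) := ⟨Nat.prime_two⟩
  obtain ⟨x, hxH, hxN, k, hk⟩ := exists_two_element h2
  have hxz := Subgroup.mem_centralizer_singleton_iff.1 hxH
  refine ⟨x, Subgroup.zpowers x ⊔ E, Subgroup.mem_sup_left (Subgroup.mem_zpowers x), hxN, ?_, le_sup_right, ?_⟩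
  · rw [sup_le_iff, Subgroup.zpowers_le]
    refine ⟨hxH, fun y hy => ?_⟩
    rw [Subgroup.mem_centralizer_singleton_iff]
    exact (h.xsp.zc y hy).symm
  · have h3 : IsPGroup 2 (Subgroup.zpowers x) := by
      rw [IsPGroup.iff_card]; exact ⟨k, by rw [Nat.card_zpowers, hk]⟩
    apply IsPGroup.to_sup_of_normal_right' h3 h.xsp.isPGroup
    rw [Subgroup.zpowers_le, Subgroup.mem_normalizer_iff]
    intro y
    constructor
    · exact h.norm x hxz y
    · intro hy
      have h4 : x⁻¹ * z = z * x⁻¹ := by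
        rw [inv_mul_eq_iff_eq_mul, ← mul_assoc, hxz, mul_inv_cancel_right]
      have h5 := h.norm x⁻¹ h4 _ hy
      have e : x⁻¹ * (x * y * x⁻¹) * x⁻¹⁻¹ = y := by group
      rwa [e] at h5

theorem setting {z : G} {E T : Subgroup G} (h : Conf E z)
    (hTH : T ≤ Subgroup.centralizer ({z} : Set G)) (hET : E ≤ T) (hT : IsPGroup 2 T) :
    Setting (E.subgroupOf T) ⟨z, hET h.xsp.mem⟩ where
  pg := hT
  nor := ⟨fun y hy t => by
    rw [Subgroup.mem_subgroupOf] at hy ⊢
    exact h.norm t (Subgroup.mem_centralizer_singleton_iff.1 (hTH t.2)) y hy⟩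
  mem := by rw [Subgroup.mem_subgroupOf]; exact h.xsp.mem
  sq := Subtype.ext h.xsp.sq
  zc := fun t => Subtype.ext (Subgroup.mem_centralizer_singleton_iff.1 (hTH t.2)).symm
  comm := by
    intro x hx y hy
    rw [Subgroup.mem_subgroupOf] at hx hy
    rcases h.xsp.comm x hx y hy with h1 | h1
    · exact Or.inl (Subtype.ext h1)
    · exact Or.inr (Subtype.ext h1)
  sqr := by
    intro x hx
    rw [Subgroup.mem_subgroupOf] at hx
    rcases h.xsp.sqr x hx with h1 | h1
    · exact Or.inl (Subtype.ext h1)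
    · exact Or.inr (Subtype.ext h1)

/-- the criterion -/
theorem criterion [Finite G] (hG : ∀ K : Subgroup G, K.index ≠ 2) {z : G} {E : Subgroup G} (h : Conf E z) {N : Subgroup G}
    (h2 : (N.subgroupOf (Subgroup.centralizer ({z} : Set G))).index = 2)
    (hcond : ∀ g : G, g * z * g⁻¹ ≠ z → (g * z * g⁻¹) * z = z * (g * z * g⁻¹) →
      (8 * Nat.card (E ⊓ Subgroup.centralizer ({g * z * g⁻¹} : Set G) : Subgroup G) ≤ Nat.card E) ∨
      (4 * Nat.card (E ⊓ Subgroup.centralizer ({g * z * g⁻¹} : Set G) : Subgroup G) ≤ Nat.card E ∧ g⁻¹ * z * g ∈ N) ∨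
      (∀ y ∈ E, (g * z * g⁻¹) * y = y * (g * z * g⁻¹) → g⁻¹ * y * g ∈ N)) : False := by
  obtain ⟨H, hH⟩ : ∃ H, H = Subgroup.centralizer ({z} : Set G) := ⟨_, rfl⟩
  have hmemH : ∀ c, c ∈ H ↔ c * z = z * c := by
    intro c; rw [hH, Subgroup.mem_centralizer_singleton_iff]
  have hiff : ∀ g b : G, g⁻¹ * b * g ∈ H ↔ (g * z * g⁻¹) * b = b * (g * z * g⁻¹) := by
    intro g b
    rw [hmemH]
    constructor
    · intro h1
      calc (g * z * g⁻¹) * b = g * (z * (g⁻¹ * b * g)) * g⁻¹ := by group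
        _ = g * ((g⁻¹ * b * g) * z) * g⁻¹ := by rw [h1]
        _ = _ := by group
    · intro h1
      calc (g⁻¹ * b * g) * z = g⁻¹ * (b * (g * z * g⁻¹)) * g := by group
        _ = g⁻¹ * ((g * z * g⁻¹) * b) * g := by rw [h1]
        _ = _ := by group
  obtain ⟨x, T, hxT, hxN, hTH, hET, hT⟩ := exists_T h h2
  rw [← hH] at h2 hTH
  refine false_of_good hG h2 hTH hxT hxN ?_
  intro g hg F hcomp hval
  have hs := setting h (by rw [← hH]; exact hTH) hET hT
  have hgz : g * z * g⁻¹ ≠ z := by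
    intro h3
    apply hg
    rw [hmemH]
    calc g * z = (g * z * g⁻¹) * g := by group
      _ = z * g := by rw [h3]
  by_cases hz : (⟨z, hET h.xsp.mem⟩ : T) ∈ stab H T g
  swap
  · exact good_of_not_mem hs hcomp hz
  have hz' : g⁻¹ * z * g ∈ H := hz
  have hc1 : Nat.card (E.subgroupOf T ⊓ stab H T g : Subgroup T) =
      Nat.card (E ⊓ Subgroup.centralizer ({g * z * g⁻¹} : Set G) : Subgroup G) := by
    refine Nat.card_congr ⟨fun y => ⟨(y : T), ?_⟩, fun y => ⟨⟨(y : G), hET y.2.1⟩, ?_⟩, ?_, ?_⟩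
    · refine ⟨?_, ?_⟩
      · exact (Subgroup.mem_subgroupOf).1 y.2.1
      · refine Subgroup.mem_centralizer_singleton_iff.2 ?_
        exact ((hiff g _).1 (mem_stab.1 y.2.2)).symm
    · refine Subgroup.mem_inf.2 ⟨?_, ?_⟩
      · rw [Subgroup.mem_subgroupOf]; exact y.2.1
      · rw [mem_stab]
        apply (hiff g _).2
        exact (Subgroup.mem_centralizer_singleton_iff.1 y.2.2).symm
    · intro y; rfl
    · intro y; rfl
  have hc2 : Nat.card (E.subgroupOf T) = Nat.card E := H2.Card.card_subgroupOf_of_le hET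
  rcases hcond g hgz (((hiff g z).1 hz')) with h3 | ⟨h3, h4⟩ | h3
  · apply good_level2 hs hcomp hz
    rw [hc1, hc2]; exact h3
  · apply good_level1 hs hcomp hz
    · rw [hc1, hc2]; exact h3
    · exact (hval ⟨z, hET h.xsp.mem⟩ hz').2 h4
  · apply good_level0 hs hcomp _ hz
    · intro y hyE hyB
      rw [Subgroup.mem_subgroupOf] at hyE
      exact (hval y hyB).2 (h3 y hyE ((hiff g _).1 hyB))
    · intro hEB
      have h5 : g * z * g⁻¹ ∈ Subgroup.centralizer (E : Set G) := by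
        rw [Subgroup.mem_centralizer_iff]
        intro y hy
        have h6 : (⟨y, hET hy⟩ : T) ∈ stab H T g := hEB (by rw [Subgroup.mem_subgroupOf]; exact hy)
        exact ((hiff g y).1 h6).symm
      have h6 := h.cent h5
      rcases h.xsp.cen _ h6 (fun y hy => ((Subgroup.mem_centralizer_iff.1 h5) y hy).symm) with h7 | h7
      · apply h.xsp.ne
        calc z = g⁻¹ * (g * z * g⁻¹) * g := by group
          _ = 1 := by rw [h7]; group
      · exact hgz h7

/-- If `4 |C_E(y)| > |E| ≥ 32` then `C_E(y)` is non-abelian. -/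
theorem exists_noncomm [Finite G] {z : G} {E : Subgroup G} (h : Conf E z) {Y : Subgroup G} (hYE : Y ≤ E) (hzY : z ∈ Y) 
    (hbig : Nat.card Y * Nat.card Y > 2 * Nat.card E) : ∃ a ∈ Y, ∃ b ∈ Y, z = a * b * a⁻¹ * b⁻¹ := by
  by_contra hcon
  push Not at hcon
  have h2 : Y ≤ E ⊓ Subgroup.centralizer (Y : Set G) := by
    intro b hb
    refine ⟨hYE hb, Subgroup.mem_centralizer_iff.2 ?_⟩
    intro c hc
    by_contra hne
    have h3 := (h.xsp.comm c (hYE hc) b (hYE hb)).resolve_left hne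
    apply hcon c hc b hb
    rw [h3]; group
  have h3 := Nat.card_mono (Set.toFinite _) h2
  have h1 := h.xsp.duality hzY hYE
  have h4 : Nat.card Y * Nat.card Y ≤ 2 * Nat.card E := by
    calc Nat.card Y * Nat.card Y ≤ Nat.card Y * _ := Nat.mul_le_mul_left _ h3
      _ = _ := h1
  omega

end Cfsg.Agent.H19.XspH
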