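import Mathlib
import Cfsg.Prelude.Def_FusionComponents
import Cfsg.Agent.H27_FusInv3
import Cfsg.Agent.H27_FusFac2
import Cfsg.Agent.H27_FusIso
import Cfsg.Agent.H27_FusNorm2

set_option autoImplicit false
set_option linter.all false

/-! Constrained systems: subnormal subsystems and central quotients. -/

namespace Cfsg.Agent.H1.Con

open Cfsg Cfsg.FusionSystem Cfsg.Agent.H27.Fus Cfsg.Agent.H27.Grp
open scoped commutatorElement

section stab

variable {Ω : Type*} [Group Ω] {S T P Q R U : Subgroup Ω} {F : FusionSystem S} {p : ℕ} {f g k : Ω → Ω}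

/-- `{s ∈ S : [Q,s] ≤ R, [R,s] = 1}` -/
def Dst (S Q R : Subgroup Ω) (hRQ : ∀ s ∈ S, ∀ q ∈ Q, s * q * s⁻¹ ∈ Q) : Subgroup Ω where
  carrier := {s | s ∈ S ∧ (∀ q ∈ Q, q⁻¹ * (s * q * s⁻¹) ∈ R) ∧ ∀ r ∈ R, s * r = r * s}
  one_mem' := ⟨S.one_mem, fun q _ => by simp [Subgroup.one_mem], fun r _ => by simp⟩
  mul_mem' := by
    rintro s t ⟨hs, hs1, hs2⟩ ⟨ht, ht1, ht2⟩
    refine ⟨S.mul_mem hs ht, fun q hq => ?_, fun r hr => ?_⟩
    · have h1 := hs1 q hq
      have h2 := ht1 q hq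
      have h3 := hs2 _ h2
      have e : q⁻¹ * (s * t * q * (s * t)⁻¹) = (q⁻¹ * (s * q * s⁻¹)) * (s * (q⁻¹ * (t * q * t⁻¹)) * s⁻¹) := by group
      rw [e, h3, mul_inv_cancel_right]
      exact R.mul_mem h1 h2
    · rw [mul_assoc, ht2 r hr, ← mul_assoc, hs2 r hr, mul_assoc]
  inv_mem' := by
    rintro s ⟨hs, hs1, hs2⟩
    have hs2' : ∀ r ∈ R, s⁻¹ * r = r * s⁻¹ := fun r hr => by
      have := hs2 r hr
      rw [inv_mul_eq_iff_eq_mul, ← mul_assoc, this, mul_inv_cancel_right]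
    refine ⟨S.inv_mem hs, fun q hq => ?_, hs2'⟩
    have h1 := hs1 _ (hRQ s⁻¹ (S.inv_mem hs) q hq)
    have h2 := R.inv_mem h1
    have e : q⁻¹ * (s⁻¹ * q * s⁻¹⁻¹) = ((s⁻¹ * q * s⁻¹⁻¹)⁻¹ * (s * (s⁻¹ * q * s⁻¹⁻¹) * s⁻¹))⁻¹ := by group
    rw [e]; exact h2

theorem mem_Dst {hRQ : ∀ s ∈ S, ∀ q ∈ Q, s * q * s⁻¹ ∈ Q} {s : Ω} :
    s ∈ Dst S Q R hRQ ↔ s ∈ S ∧ (∀ q ∈ Q, q⁻¹ * (s * q * s⁻¹) ∈ R) ∧ ∀ r ∈ R, s * r = r * s := Iff.rfl

variable [Fact p.Prime] [Finite S]

omit [Fact p.Prime] in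
theorem Dst_strong (hQ : F.IsNormal Q) (hR : F.StronglyClosed R) (hRQ' : R ≤ Q)
    (hRQ : ∀ s ∈ S, ∀ q ∈ Q, s * q * s⁻¹ ∈ Q) : F.StronglyClosed (Dst S Q R hRQ) := by
  rw [stronglyClosed_iff]
  refine ⟨fun s hs => hs.1, fun P f hf x hx hxD => ?_⟩
  obtain ⟨hxS, h1, h2⟩ := hxD
  obtain ⟨k, hk, hkf, hkQ⟩ := (isNormal_iff.1 hQ).2 P f hf
  have hkm := hk.mono (le_sup_right : Q ≤ P ⊔ Q)
  have hxP : x ∈ P ⊔ Q := Subgroup.mem_sup_left hx
  have hQP : ∀ q ∈ Q, q ∈ P ⊔ Q := fun q hq => Subgroup.mem_sup_right hq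
  rw [mem_Dst, ← hkf x hx]
  refine ⟨hk.mem hxP, fun q hq => ?_, fun r hr => ?_⟩
  · rw [← hkQ, hkm.mem_im] at hq
    obtain ⟨q', hq', rfl⟩ := hq
    have e : (k q')⁻¹ * (k x * k q' * (k x)⁻¹) = k (q'⁻¹ * (x * q' * x⁻¹)) := by
      rw [hk.mul (Subgroup.inv_mem _ (hQP _ hq')) (Subgroup.mul_mem _ (Subgroup.mul_mem _ hxP (hQP _ hq')) (Subgroup.inv_mem _ hxP)),
        hk.conj hxP (hQP _ hq'), hk.inv (hQP _ hq')]
    rw [e]
    exact (stronglyClosed_iff.1 hR).2 _ _ hk _ (hQP _ (hRQ' (h1 q' hq'))) (h1 q' hq')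
  · have h3 := StronglyClosed.im_eq hR hk ((hRQ').trans le_sup_right)
    rw [← h3, (hk.mono ((hRQ').trans le_sup_right)).mem_im] at hr
    obtain ⟨r', hr', rfl⟩ := hr
    rw [← hk.mul hxP (hQP _ (hRQ' hr')), ← hk.mul (hQP _ (hRQ' hr')) hxP, h2 r' hr']

omit [Fact p.Prime] [Finite S] in
theorem strong_inf (hR : F.StronglyClosed R) (hT : F.StronglyClosed T) : F.StronglyClosed (R ⊓ T) := by
  rw [stronglyClosed_iff] at *
  exact ⟨inf_le_left.trans hR.1, fun P f hf x hx hxR => ⟨hR.2 P f hf x hx hxR.1, hT.2 P f hf x hx hxR.2⟩⟩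

/-- stability groups of chains in a centric core lie in the core -/
theorem cstab (hS : IsPGroup p S) (hF : F.IsSaturated p) (hc : F.IsCentric F.core) (hR : F.StronglyClosed R)
    (hRQ' : R ≤ F.core) {s : Ω} (hs : s ∈ S) (h1 : ∀ q ∈ F.core, q⁻¹ * (s * q * s⁻¹) ∈ R)
    (h2 : ∀ r ∈ R, s * r = r * s) : s ∈ F.core := by
  have hQ := core_normal F
  have hQs := IsNormal.strong hQ
  have hRQ : ∀ s ∈ S, ∀ q ∈ F.core, s * q * s⁻¹ ∈ F.core := fun s hs q hq => StronglyClosed.conj_mem hQs hs hq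
  set Q := F.core with hQdef
  set D := Dst S Q R hRQ with hD
  have hDs : F.StronglyClosed D := Dst_strong hQ hR hRQ' hRQ
  have hDn : F.IsNormal D := by
    let C : ℕ → Subgroup Ω := fun i => if i = 0 then ⊥ else if i = 1 then R ⊓ D else if i = 2 then Q ⊓ D else D
    have hC0 : C 0 = ⊥ := by simp [C]
    have hC1 : C 1 = R ⊓ D := by simp [C]
    have hC2 : C 2 = Q ⊓ D := by simp [C]
    have hC3 : C 3 = D := by simp [C]
    have hDS : D ≤ S := fun s hs => hs.1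
    have hconjD : ∀ x ∈ D, ∀ y ∈ D, y⁻¹ * (x * y * x⁻¹) ∈ D := fun x hx y hy =>
      D.mul_mem (D.inv_mem hy) (D.mul_mem (D.mul_mem hx hy) (D.inv_mem hx))
    rw [← hC3]
    refine normal_of_chain hS hF C 3 (by rw [hC3]; exact hDs) ?_ ?_ ?_ ?_
    · intro i hi
      interval_cases i
      · rw [hC0]; exact bot_le
      · rw [hC1, hC2]; exact inf_le_inf_right _ hRQ'
      · rw [hC2, hC3]; exact inf_le_right
    · intro i hi
      interval_cases i
      · rw [hC0]; exact StronglyClosed.weakly (strongly_bot F)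
      · rw [hC1]; exact StronglyClosed.weakly (strong_inf hR hDs)
      · rw [hC2]; exact StronglyClosed.weakly (strong_inf hQs hDs)
    · intro i hi
      rw [hC3]
      interval_cases i
      · rw [hC0, zero_add, hC1]
        intro x hx y hy
        rw [Subgroup.mem_bot, hx.2.2 y hy.1]; group
      · rw [hC1]
        show ∀ x ∈ D, ∀ y ∈ C 2, _
        rw [hC2]
        intro x hx y hy
        exact ⟨hx.2.1 y hy.1, hconjD x hx y hy.2⟩
      · rw [hC2]
        show ∀ x ∈ D, ∀ y ∈ C 3, _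
        rw [hC3]
        intro x hx y hy
        refine ⟨?_, hconjD x hx y hy⟩
        -- `[D,D]` centralizes `Q`
        refine IsCentric.cen_le hc ?_
        rw [mem_cen]
        refine ⟨hDS (hconjD x hx y hy), fun q hq => ?_⟩
        -- conjugations commute on `Q`
        have key : ∀ q ∈ Q, (x * y) * q * (x * y)⁻¹ = (y * x) * q * (y * x)⁻¹ := by
          intro q hq
          have a1 := hx.2.1 q hq
          have a2 := hy.2.1 q hq
          have b1 := hx.2.2 _ a2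
          have b2 := hy.2.2 _ a1
          have b3 : (q⁻¹ * (y * q * y⁻¹)) * (q⁻¹ * (x * q * x⁻¹)) = (q⁻¹ * (x * q * x⁻¹)) * (q⁻¹ * (y * q * y⁻¹)) := by
            -- `q⁻¹ x q x⁻¹ ∈ R`, and `y` centralizes `R`; express `q⁻¹ y q y⁻¹`
            have c1 : ∀ r ∈ R, (q⁻¹ * (y * q * y⁻¹)) * r = r * (q⁻¹ * (y * q * y⁻¹)) := by
              intro r hr
              have d1 : q * r * q⁻¹ ∈ R := StronglyClosed.conj_mem hR (hc.1 hq) hr
              have d2 : y⁻¹ * r = r * y⁻¹ := by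
                have := hy.2.2 r hr
                rw [inv_mul_eq_iff_eq_mul, ← mul_assoc, this, mul_inv_cancel_right]
              have d3 := hy.2.2 _ d1
              calc (q⁻¹ * (y * q * y⁻¹)) * r = q⁻¹ * y * q * (y⁻¹ * r) := by group
                _ = q⁻¹ * y * q * (r * y⁻¹) := by rw [d2]
                _ = q⁻¹ * (y * (q * r * q⁻¹)) * q * y⁻¹ := by group
                _ = q⁻¹ * ((q * r * q⁻¹) * y) * q * y⁻¹ := by rw [d3]
                _ = _ := by group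
            exact c1 _ a1
          have e1 : (x * y) * q * (x * y)⁻¹ = (x * q * x⁻¹) * (x * (q⁻¹ * (y * q * y⁻¹)) * x⁻¹) := by group
          have e2 : (y * x) * q * (y * x)⁻¹ = (y * q * y⁻¹) * (y * (q⁻¹ * (x * q * x⁻¹)) * y⁻¹) := by group
          rw [e1, e2, b1, b2, mul_inv_cancel_right, mul_inv_cancel_right]
          calc (x * q * x⁻¹) * (q⁻¹ * (y * q * y⁻¹)) = q * ((q⁻¹ * (x * q * x⁻¹)) * (q⁻¹ * (y * q * y⁻¹))) := by group
            _ = q * ((q⁻¹ * (y * q * y⁻¹)) * (q⁻¹ * (x * q * x⁻¹))) := by rw [b3]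
            _ = _ := by group
        have h3 := key (x⁻¹ * q * x⁻¹⁻¹) (hRQ _ (S.inv_mem (hDS hx)) q hq)
        have h4 : y⁻¹ * (x * y * x⁻¹) * q * (y⁻¹ * (x * y * x⁻¹))⁻¹ = q := by
          have e : y⁻¹ * (x * y * x⁻¹) * q * (y⁻¹ * (x * y * x⁻¹))⁻¹ =
              y⁻¹ * ((x * y) * (x⁻¹ * q * x⁻¹⁻¹) * (x * y)⁻¹) * y := by group
          rw [e, h3]; group
        have h5 := congrArg (fun w => w * (y⁻¹ * (x * y * x⁻¹))) h4
        simp only [inv_mul_cancel_right] at h5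
        exact h5.symm
    · intro P hcP hrP
      rw [hC0]
      exact ⟨bot_le, fun α _ => ⟨0, fun x hx => by
        have : x = 1 := Subtype.ext (Subgroup.mem_bot.1 hx)
        rw [this, map_one]⟩⟩
  exact le_core hDn ⟨hs, h1, h2⟩

theorem core_centric (hcon : F.IsConstrained p) : F.IsCentric F.core := by
  obtain ⟨hF, Q, hQ, hQc⟩ := hcon
  exact IsCentric.mono hQc (le_core hQ) (core_normal F).1

theorem normal_sub_of_strong (hQ : F.IsNormal Q) (hR : F.StronglyClosed R) (hRQ : R ≤ Q) : F.IsNormal R := by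
  rw [isNormal_iff]
  refine ⟨hR.1, fun P f hf => ?_⟩
  obtain ⟨k, hk, hkf, hkQ⟩ := (isNormal_iff.1 hQ).2 P f hf
  have hle : P ⊔ R ≤ P ⊔ Q := sup_le_sup_left hRQ _
  exact ⟨k, hk.mono hle, hkf, StronglyClosed.im_eq hR (hk.mono hle) le_sup_right⟩

/-- one step: invariant subsystems of constrained systems are constrained -/
theorem con_step (hS : IsPGroup p S) (hcon : F.IsConstrained p) {E : FusionSystem T} (hE : E.IsSaturated p)
    (hI : Inv E F) : E.IsConstrained p := by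
  have hF := hcon.1
  have hc := core_centric hcon
  have hQ := core_normal F
  have hQs := IsNormal.strong hQ
  have hT := hI.strong
  have hTS := hT.1
  haveI : Finite T := finite_of_le hTS
  have hRs := strong_inf hQs hT
  set Q := F.core with hQd
  set R := Q ⊓ T with hR
  have hRT : R ≤ T := inf_le_right
  have hRQ : R ≤ Q := inf_le_left
  have hcen : centralizerIn T R ≤ R := by
    intro t ht
    obtain ⟨htT, htc⟩ := mem_cen.1 ht
    refine ⟨?_, htT⟩
    refine cstab hS hF hc hRs hRQ (hTS htT) (fun q hq => ?_) (fun r hr => (htc r hr).symm)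
    refine ⟨Q.mul_mem (Q.inv_mem hq) (StronglyClosed.conj_mem hQs (hTS htT) hq), ?_⟩
    have h1 := StronglyClosed.conj_mem hT (S.inv_mem (hc.1 hq)) htT
    have h2 : q⁻¹ * t * q⁻¹⁻¹ * t⁻¹ = q⁻¹ * (t * q * t⁻¹) := by group
    rw [← h2]
    exact T.mul_mem h1 (T.inv_mem htT)
  have hRn : F.IsNormal R := normal_sub_of_strong hQ hRs hRQ
  have hREs : E.StronglyClosed R := by
    rw [stronglyClosed_iff] at hRs ⊢
    exact ⟨hRT, fun P f hf x hx hxR => hRs.2 P f (hI.sub P f hf) x hx hxR⟩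
  refine ⟨hE, R, ?_, ?_⟩
  · refine normal_of_strong (hS.to_le hTS) hE hREs ?_
    intro P hcP hrP
    have hPT := hcP.1
    have hPS := hPT.trans hTS
    refine le_of_radical (hS.to_le hTS) hcP hrP hRT ?_ (X := autInducedBy (P ⊔ R) P) ?_ ?_ ?_ ?_
    · exact fun x hx => (StronglyClosed.le_normalizer hRs (hPS hx)).2
    · intro α hα
      obtain ⟨s, hs, hsα⟩ := mem_autInducedBy.1 hα
      exact autInducedBy_le_autGroup E hPT (mem_autInducedBy.2 ⟨s, sup_le hPT hRT hs, hsα⟩)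
    · refine le_normalizer_of fun α hα β hβ => ?_
      obtain ⟨s, hs, hsβ⟩ := mem_autInducedBy.1 hβ
      have hi := (mem_autGroup_iff hPT).1 hα
      obtain ⟨g, hg, hgf, hgQ⟩ := (isNormal_iff.1 hRn).2 P _ (hI.sub _ _ hi.map)
      have hgs : g s ∈ P ⊔ R := by
        refine hg.maps_sup (fun x hx => ?_) (fun x hx => ?_) s hs
        · rw [hgf x hx]; exact Subgroup.mem_sup_left (hi.maps x hx)
        · exact Subgroup.mem_sup_right (hgQ.le ((hg.mono le_sup_right).apply_mem_im hx))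
      refine mem_autInducedBy.2 ⟨g s, hgs, fun x => ?_⟩
      rw [MulAut.mul_apply, MulAut.mul_apply, ← totA_apply, ← hgf _ (SetLike.coe_mem _), hsβ,
        hg.conj hs (Subgroup.mem_sup_left (SetLike.coe_mem _)), hgf _ (SetLike.coe_mem _), totA_apply,
        MulAut.apply_inv_self]
    · rw [autInducedBy_eq_map]
      exact ((hS.to_le ((sup_le hPT hRT).trans hTS)).comap_of_injective _ (Subgroup.subtype_injective _)).map _
    · intro s hs hN
      exact cjA_mem hN (Subgroup.mem_sup_right hs)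
  · refine ⟨hRT, fun R' hR' => ?_⟩
    obtain ⟨f, hf⟩ := isConj_iff.1 hR'
    have h1 : im R f = R := StronglyClosed.im_eq hREs hf.map le_rfl
    rw [hf.im_eq] at h1
    rw [h1]; exact hcen

end stab

section subn

variable {Ω : Type*} [Group Ω]

theorem con_subnormal {T S : Subgroup Ω} {E : FusionSystem T} {F : FusionSystem S} {p : ℕ}
    (h : E.IsSubnormalIn F p) : ∀ (_ : Fact p.Prime) (_ : Finite S) (_ : IsPGroup p S) (_ : F.IsConstrained p),
      E.IsConstrained p := by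
  induction h with
  | refl => exact fun _ _ _ h => h
  | @step U S E D F p hED hDF ih =>
    intro hp hfin hS hF
    obtain ⟨hD, -, hI, -⟩ := normalIn_iff.1 hDF
    have hUS := hI.strong.1
    have : Finite U := fin_of_le hUS
    exact ih hp this (hS.to_le hUS) (con_step hS hF hD hI)

end subn

section quot

variable {Ω Ω' : Type*} [Group Ω] [Group Ω'] {S P Q R Z : Subgroup Ω} {S' P' : Subgroup Ω'} {F : FusionSystem S}
  {E : FusionSystem S'} {p : ℕ} {θ : S →* Ω'}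
variable [Fact p.Prime] [Finite S]

omit [Fact p.Prime] [Finite S] in
theorem image_sup (hP : P ≤ S) (hQ : Q ≤ S) : imageAlong θ (P ⊔ Q) = imageAlong θ P ⊔ imageAlong θ Q := by
  unfold imageAlong
  rw [Subgroup.subgroupOf_sup hP hQ, Subgroup.map_sup]

omit [Fact p.Prime] in
/-- images of normal subgroups are normal in the factor system -/
theorem normal_image (hE : F.IsFactorSystem Z θ E) (hZ : F.StronglyClosed Z) (hQ : F.IsNormal Q) (hZQ : Z ≤ Q) :
    E.IsNormal (imageAlong θ Q) := by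
  obtain ⟨hd, hm⟩ := isFactorSystem_iff.1 hE
  have hQS := hQ.1
  rw [isNormal_iff]
  refine ⟨imageAlong_le hd hQS, fun P' f' hf' => ?_⟩
  have hP' := hf'.le
  obtain ⟨-, -, f, hf, hind⟩ := (hm P' f').1 hf'
  obtain ⟨k, hk, hkf, hkQ⟩ := (isNormal_iff.1 hQ).2 _ f hf
  have hpre : preimageAlong θ (P' ⊔ imageAlong θ Q) = preimageAlong θ P' ⊔ Q := by
    have h1 := pre_image hd (P := preimageAlong θ P' ⊔ Q) (sup_le (preimageAlong_le _ _) hQS)
    rw [image_sup (preimageAlong_le _ _) hQS, image_pre hd hP'] at h1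
    rw [h1]
    exact sup_eq_left.2 (hZQ.trans le_sup_right)
  rw [← hpre] at hk
  obtain ⟨k', hk', hkind⟩ := exists_ind_map hE hZ (sup_le hP' (imageAlong_le hd hQS)) hk
  refine ⟨k', hk', fun y hy => ?_, ?_⟩
  · obtain ⟨x, hx, rfl⟩ := hd.pre_surj hP' hy
    have hx' : x ∈ preimageAlong θ (P' ⊔ imageAlong θ Q) := by rw [hpre]; exact Subgroup.mem_sup_left hx
    rw [hkind x hx', hind x hx, hkf x hx]
  · have hm1 := hk'.mono (le_sup_right : imageAlong θ Q ≤ P' ⊔ imageAlong θ Q)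
    have hkQm : Map F Q k := hk.mono (by rw [hpre]; exact le_sup_right)
    ext y
    rw [hm1.mem_im, mem_imageAlong θ hQS]
    constructor
    · rintro ⟨z, hz, rfl⟩
      obtain ⟨q, hq, rfl⟩ := (mem_imageAlong θ hQS).1 hz
      have hq' : q ∈ preimageAlong θ (P' ⊔ imageAlong θ Q) := by rw [hpre]; exact Subgroup.mem_sup_right hq
      refine ⟨k q, ?_, (hkind q hq').symm⟩
      rw [← hkQ]; exact hkQm.apply_mem_im hq
    · rintro ⟨q, hq, rfl⟩
      rw [← hkQ, hkQm.mem_im] at hq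
      obtain ⟨q', hq', rfl⟩ := hq
      have hq'' : q' ∈ preimageAlong θ (P' ⊔ imageAlong θ Q) := by rw [hpre]; exact Subgroup.mem_sup_right hq'
      exact ⟨tt θ q', (mem_imageAlong θ hQS).2 ⟨q', hq', rfl⟩, hkind q' hq''⟩

/-- central quotients of constrained systems are constrained -/
theorem con_quot (hS : IsPGroup p S) (hcon : F.IsConstrained p) (hE : F.IsFactorSystem Z θ E) (hZ : F.IsCentral Z) :
    E.IsConstrained p := by
  have hF := hcon.1
  have hc := core_centric hcon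
  have hQ := core_normal F
  have hQs := IsNormal.strong hQ
  have hZn := IsCentral.normal hZ
  have hZs := IsNormal.strong hZn
  have hZQ : Z ≤ F.core := le_core hZn
  obtain ⟨hd, hm⟩ := isFactorSystem_iff.1 hE
  have hEs := factor_saturated hS hF hE hZs
  haveI := finite_S' hd
  have hZc : ∀ z ∈ Z, ∀ s ∈ S, s * z = z * s := by
    intro z hz s hs
    have h1 : Z ≤ F.center := le_center hZ
    exact Subgroup.mem_centralizer_iff.1 (F.center_le_centralizer (h1 hz)) s hs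
  have hQ'n := normal_image hE hZs hQ hZQ
  refine ⟨hEs, imageAlong θ F.core, hQ'n, hQ'n.1, fun R' hR' => ?_⟩
  obtain ⟨f, hf⟩ := isConj_iff.1 hR'
  have h1 : im (imageAlong θ F.core) f = imageAlong θ F.core := StronglyClosed.im_eq (IsNormal.strong hQ'n) hf.map le_rfl
  rw [hf.im_eq] at h1
  rw [h1]
  intro y hy
  obtain ⟨hyS, hyc⟩ := mem_cen.1 hy
  obtain ⟨s, hs, rfl⟩ := hd.surj hyS
  refine (mem_imageAlong θ hc.1).2 ⟨s, ?_, rfl⟩
  refine cstab hS hF hc hZs hZQ hs (fun q hq => ?_) (fun r hr => hZc r hr s hs)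
  have h2 := hyc (tt θ q) ((mem_imageAlong θ hc.1).2 ⟨q, hq, rfl⟩)
  have hqS := hc.1 hq
  rw [← tt_mul θ hqS hs, ← tt_mul θ hs hqS, hd.eq_iff (S.mul_mem hqS hs) (S.mul_mem hs hqS)] at h2
  have h4 : (q * s)⁻¹ * (s * q) ∈ Z ∨ (s * q)⁻¹ * (q * s) ∈ Z := by
    first
      | exact Or.inl h2
      | exact Or.inr h2
  have h5 : (q * s)⁻¹ * (s * q) ∈ Z := by
    rcases h4 with h4 | h4
    · exact h4
    · have := Z.inv_mem h4
      rwa [mul_inv_rev, inv_inv] at this
  have h6 := StronglyClosed.conj_mem hZs hs h5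
  have h7 : s * ((q * s)⁻¹ * (s * q)) * s⁻¹ = q⁻¹ * (s * q * s⁻¹) := by group
  rwa [h7] at h6

end quot

end Cfsg.Agent.H1.Con
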