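import Mathlib
import Cfsg.Agent.H1_FusZ
import Cfsg.Agent.H2_Class

/-! Generalized extraspecial groups with an elementary abelian maximal subgroup. -/

set_option autoImplicit false
set_option linter.all false
open Cfsg

namespace Cfsg.Agent.H1.FusE

open scoped commutatorElement
open Cfsg.Agent.H2.Class

/-- dihedral groups of order 8 -/
theorem d8_of {G : Type*} [Group G] [Finite G] (hc : Nat.card G = 8) {u v : G} (hu : u * u = 1) (hv : v * v = 1)
    (huv : u * v ≠ v * u) : Nonempty (G ≃* DihedralGroup 4) := by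
  haveI : Fact (Nat.Prime 2) := ⟨Nat.prime_two⟩
  have hui : u⁻¹ = u := inv_eq_of_mul_eq_one_left hu
  have hvi : v⁻¹ = v := inv_eq_of_mul_eq_one_left hv
  have hn2 : (u * v) ^ 2 ≠ 1 := by
    intro h
    apply huv
    have h1 : (u * v)⁻¹ = u * v := inv_eq_of_mul_eq_one_left (by rw [← sq]; exact h)
    rw [mul_inv_rev, hui, hvi] at h1
    exact h1.symm
  have hc3 : Nat.card G = 2 ^ 3 := by rw [hc]; norm_num
  have hext := Cfsg.Agent.H1.FusZ.extraspecial_of_cube (p := 2) hc3 ⟨u, v, huv⟩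
  have hz : Nat.card (Subgroup.center G) = 2 := hext.2
  have hi : (Subgroup.center G).index = 2 ^ 2 := by
    have := (Subgroup.center G).card_mul_index
    rw [hz, hc] at this
    omega
  have h4 : (u * v) ^ 4 = 1 := by
    have h1 := Cfsg.Agent.H1.FusZ.pow_mem (IsPGroup.of_card hc3) hi ⟨u, v, huv⟩ (u * v)
    have h3 := pow_card_eq_one' (x := (⟨_, h1⟩ : Subgroup.center G))
    rw [hz] at h3
    have h6 : ((u * v) ^ 2) ^ 2 = 1 := congrArg Subtype.val h3
    rw [← pow_mul] at h6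
    exact h6
  have hord : orderOf (u * v) = 4 := by
    have := orderOf_eq_prime_pow (p := 2) (n := 1) (x := u * v) (by simpa using hn2) (by simpa using h4)
    simpa using this
  refine Cfsg.Agent.H5.Dih.nonempty_dihedral (n := 4) (by norm_num) (u * v) u hord hu ?_ ?_ ?_
  · rw [mul_inv_rev, hui, hvi, ← mul_assoc, hu, one_mul]
  · intro hmem
    obtain ⟨k, hk⟩ := Subgroup.mem_zpowers_iff.1 hmem
    have h1 : Commute ((u * v) ^ k) (u * v) := (Commute.refl _).zpow_left k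
    rw [hk] at h1
    apply huv
    have h2 : u * (u * v) = u * v * u := h1
    rw [mul_assoc] at h2
    exact mul_left_cancel h2
  · rw [hc]

/-- an elementary abelian complement of a nontrivial element of order `p` -/
theorem exists_compl {G : Type*} [Group G] [Finite G] {p : ℕ} [hp : Fact p.Prime] {Z : Subgroup G}
    (hZ : ∀ a ∈ Z, ∀ b ∈ Z, a * b = b * a) (hZp : ∀ a ∈ Z, a ^ p = 1) {c : G} (hc : c ∈ Z) (hc1 : c ≠ 1) :
    ∃ A ≤ Z, c ∉ A ∧ ∀ w ∈ Z, ∃ k : ℤ, ∃ a ∈ A, w = c ^ k * a := by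
  have hfin : {A : Subgroup G | A ≤ Z ∧ c ∉ A}.Finite := Set.toFinite _
  obtain ⟨A, hA⟩ := hfin.exists_maximal ⟨⊥, bot_le, fun h => hc1 (Subgroup.mem_bot.1 h)⟩
  obtain ⟨hAZ, hcA⟩ := hA.1
  refine ⟨A, hAZ, hcA, fun w hw => ?_⟩
  by_cases hwA : w ∈ A
  · exact ⟨0, w, hwA, by simp⟩
  -- the subgroup generated by `A` and `w`
  let B : Subgroup G :=
    { carrier := {x | ∃ k : ℤ, ∃ a ∈ A, x = w ^ k * a}
      one_mem' := ⟨0, 1, A.one_mem, by simp⟩
      mul_mem' := by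
        rintro _ _ ⟨k, a, ha, rfl⟩ ⟨l, b, hb, rfl⟩
        refine ⟨k + l, a * b, A.mul_mem ha hb, ?_⟩
        have h1 : a * w ^ l = w ^ l * a := hZ a (hAZ ha) _ (Z.zpow_mem hw l)
        rw [zpow_add]
        calc w ^ k * a * (w ^ l * b) = w ^ k * (a * w ^ l) * b := by group
          _ = w ^ k * (w ^ l * a) * b := by rw [h1]
          _ = _ := by group
      inv_mem' := by
        rintro _ ⟨k, a, ha, rfl⟩
        refine ⟨-k, a⁻¹, A.inv_mem ha, ?_⟩
        rw [mul_inv_rev, zpow_neg]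
        exact hZ _ (Z.inv_mem (hAZ ha)) _ (Z.inv_mem (Z.zpow_mem hw k)) }
  have hBZ : B ≤ Z := by
    rintro _ ⟨k, a, ha, rfl⟩
    exact Z.mul_mem (Z.zpow_mem hw k) (hAZ ha)
  have hAB : A ≤ B := fun a ha => ⟨0, a, ha, by simp⟩
  have hwB : w ∈ B := ⟨1, 1, A.one_mem, by simp⟩
  have hcB : c ∈ B := by
    by_contra hcB
    have := hA.2 (show B ∈ {A : Subgroup G | A ≤ Z ∧ c ∉ A} from ⟨hBZ, hcB⟩) hAB
    exact hwA (this hwB)
  obtain ⟨k, a, ha, hca⟩ := hcB
  -- `k` is prime to `p`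
  have hk : ¬ (p : ℤ) ∣ k := by
    rintro ⟨l, rfl⟩
    rw [zpow_mul, zpow_natCast, hZp w hw, one_zpow, one_mul] at hca
    exact hcA (hca ▸ ha)
  have hcop : IsCoprime k (p : ℤ) := by
    rw [isCoprime_comm]
    exact (Nat.prime_iff_prime_int.1 hp.out).coprime_iff_not_dvd.2 hk
  obtain ⟨u, v, huv⟩ := hcop
  refine ⟨u, (a ^ u)⁻¹, A.inv_mem (A.zpow_mem ha u), ?_⟩
  have h2 : w ^ (u * k + v * p) = w := by rw [huv, zpow_one]
  rw [zpow_add, mul_comm u k, zpow_mul, mul_comm v, zpow_mul w (p : ℤ), zpow_natCast, hZp w hw, one_zpow, mul_one] at h2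
  have h3 : c ^ u = (w ^ k) ^ u * a ^ u := by
    rw [hca]
    have : Commute (w ^ k) a := hZ _ (Z.zpow_mem hw k) _ (hAZ ha)
    exact this.mul_zpow u
  rw [h3, h2]; group

variable {X : Type*} [Group X] [Finite X] {p : ℕ} [hp : Fact p.Prime]

/-- **splitting** -/
theorem split (hD : Nat.card (commutator X) = p) (hcen : ∀ a b : X, ⁅a, b⁆ ∈ Subgroup.center X) {x₀ y : X}
    (hxy : x₀ * y ≠ y * x₀) (hx : x₀ ^ p = 1) (hMp : ∀ a : X, a * y = y * a → a ^ p = 1)
    (hMc : ∀ a b : X, a * y = y * a → b * y = y * b → a * b = b * a) :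
    ∃ E A : Subgroup X, (∀ a ∈ A, a ∈ Subgroup.center X) ∧ (∀ a ∈ A, a ^ p = 1) ∧ E ⊓ A = ⊥ ∧
      (∀ x, ∃ e ∈ E, ∃ a ∈ A, e * a = x) ∧ x₀ ∈ E ∧ y ∈ E ∧ Nat.card E = p ^ 3 := by
  set c := ⁅x₀, y⁆ with hc
  have hcZ : c ∈ Subgroup.center X := hcen _ _
  have hc1 : c ≠ 1 := by
    rw [hc, Ne, commutatorElement_eq_one_iff_mul_comm]; exact hxy
  have hcc : ∀ w, Commute w c := fun w => Subgroup.mem_center_iff.1 hcZ w
  have hcp : c ^ p = 1 := hMp c (hcc y).symm
  have hcord : orderOf c = p := orderOf_eq_prime hcp hc1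
  have hyp : y ^ p = 1 := hMp y rfl
  have hDc : ∀ a b : X, ∃ k : ℤ, ⁅a, b⁆ = c ^ k := by
    intro a b
    have hab : ⁅a, b⁆ ∈ commutator X := Subgroup.commutator_mem_commutator (Subgroup.mem_top a) (Subgroup.mem_top b)
    have hcD : c ∈ commutator X := Subgroup.commutator_mem_commutator (Subgroup.mem_top _) (Subgroup.mem_top _)
    have hz : commutator X = Subgroup.zpowers c := by
      apply (Subgroup.eq_of_le_of_card_ge (Subgroup.zpowers_le.2 hcD) ?_).symm
      rw [hD, Nat.card_zpowers, hcord]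
    rw [hz] at hab
    obtain ⟨k, hk⟩ := Subgroup.mem_zpowers_iff.1 hab
    exact ⟨k, hk.symm⟩
  -- every element is `x₀ ^ i * m`
  have hX1 : ∀ x : X, ∃ i : ℤ, (x₀ ^ (-i) * x) * y = y * (x₀ ^ (-i) * x) ∧ ⁅x, y⁆ = c ^ i := by
    intro x
    obtain ⟨i, hi⟩ := hDc x y
    refine ⟨i, ?_, hi⟩
    rw [← commutatorElement_eq_one_iff_mul_comm, comm_mul_left hcen, comm_zpow_left hcen, hi, ← hc, ← zpow_add]
    simp
  have hcent : ∀ w : X, w * y = y * w → w * x₀ = x₀ * w → w ∈ Subgroup.center X := by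
    intro w hwy hwx
    rw [Subgroup.mem_center_iff]
    intro g
    obtain ⟨i, hi, -⟩ := hX1 g
    have h1 := hMc _ _ hi hwy
    have h2 : Commute w (x₀ ^ i) := (show Commute w x₀ from hwx).zpow_right i
    have h3 : g = x₀ ^ i * (x₀ ^ (-i) * g) := by group
    have h4 : Commute w g := by
      rw [h3]; exact h2.mul_right (show Commute w _ from h1.symm)
    exact h4.symm
  have hX2 : ∀ x : X, ∃ i j : ℤ, ∃ w ∈ Subgroup.center X, x = x₀ ^ i * (y ^ j * w) := by
    intro x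
    obtain ⟨i, hi, -⟩ := hX1 x
    obtain ⟨j, hj⟩ := hDc x₀ (x₀ ^ (-i) * x)
    refine ⟨i, j, y ^ (-j) * (x₀ ^ (-i) * x), hcent _ ?_ ?_, by group⟩
    · have h1 : Commute (y ^ (-j)) y := (Commute.refl y).zpow_left _
      exact h1.mul_left (show Commute _ y from hi)
    · rw [eq_comm, ← commutatorElement_eq_one_iff_mul_comm, comm_mul_right hcen, comm_zpow_right hcen, ← hc, hj,
        ← zpow_add]
      simp
  have hZab : ∀ a ∈ Subgroup.center X, ∀ b ∈ Subgroup.center X, a * b = b * a := fun a ha b _ =>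
    (Subgroup.mem_center_iff.1 ha b).symm
  obtain ⟨A, hAZ, hcA, hAdec⟩ := exists_compl (p := p) hZab
    (fun a ha => hMp a (Subgroup.mem_center_iff.1 ha y).symm) hcZ hc1
  -- commutation formula
  have hform : ∀ i j : ℤ, y ^ j * x₀ ^ i = x₀ ^ i * y ^ j * c ^ (-(i * j)) := by
    intro i j
    have h1 : ⁅x₀ ^ i, y ^ j⁆ = c ^ (i * j) := by
      rw [comm_zpow_left hcen, comm_zpow_right hcen, ← zpow_mul, mul_comm]
    have h2 : x₀ ^ i * y ^ j = c ^ (i * j) * (y ^ j * x₀ ^ i) := by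
      rw [← h1, commutatorElement_def]; group
    rw [h2, ((hcc _).zpow_right (i * j)).symm.eq, mul_assoc, ← zpow_add]
    simp
  let E : Subgroup X :=
    { carrier := {x | ∃ i j k : ℤ, x = x₀ ^ i * y ^ j * c ^ k}
      one_mem' := ⟨0, 0, 0, by simp⟩
      mul_mem' := by
        rintro _ _ ⟨i, j, k, rfl⟩ ⟨i', j', k', rfl⟩
        refine ⟨i + i', j + j', -(i' * j) + k + k', ?_⟩
        have e1 : Commute (x₀ ^ i' * y ^ j') (c ^ k) := (hcc _).zpow_right k
        calc x₀ ^ i * y ^ j * c ^ k * (x₀ ^ i' * y ^ j' * c ^ k')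
            = x₀ ^ i * y ^ j * (c ^ k * (x₀ ^ i' * y ^ j')) * c ^ k' := by group
          _ = x₀ ^ i * y ^ j * ((x₀ ^ i' * y ^ j') * c ^ k) * c ^ k' := by rw [e1.eq]
          _ = x₀ ^ i * (y ^ j * x₀ ^ i') * y ^ j' * (c ^ k * c ^ k') := by group
          _ = x₀ ^ i * (x₀ ^ i' * y ^ j * c ^ (-(i' * j))) * y ^ j' * (c ^ k * c ^ k') := by rw [hform]
          _ = x₀ ^ i * x₀ ^ i' * y ^ j * (c ^ (-(i' * j)) * y ^ j') * (c ^ k * c ^ k') := by group
          _ = x₀ ^ i * x₀ ^ i' * y ^ j * (y ^ j' * c ^ (-(i' * j))) * (c ^ k * c ^ k') := by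
              rw [((hcc (y ^ j')).zpow_right (-(i' * j))).eq]
          _ = (x₀ ^ i * x₀ ^ i') * (y ^ j * y ^ j') * (c ^ (-(i' * j)) * c ^ k * c ^ k') := by group
          _ = _ := by rw [← zpow_add, ← zpow_add, ← zpow_add, ← zpow_add]
      inv_mem' := by
        rintro _ ⟨i, j, k, rfl⟩
        refine ⟨-i, -j, -(i * j) + -k, ?_⟩
        rw [mul_inv_rev, mul_inv_rev, ← zpow_neg, ← zpow_neg, ← zpow_neg, hform (-i) (-j)]
        have e1 : Commute (x₀ ^ (-i) * y ^ (-j) * c ^ (-(-i * -j))) (c ^ (-k)) := (hcc _).zpow_right _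
        rw [e1.symm.eq, mul_assoc, ← zpow_add]
        congr 2
        ring }
  have hx0E : x₀ ∈ E := ⟨1, 0, 0, by simp⟩
  have hyE : y ∈ E := ⟨0, 1, 0, by simp⟩
  have hczero : ∀ k : ℤ, c ^ k = 1 → (p : ℤ) ∣ k := by
    intro k hk
    rw [← hcord]; exact orderOf_dvd_iff_zpow_eq_one.2 hk
  have hcommy : ∀ i j k : ℤ, ⁅x₀ ^ i * y ^ j * c ^ k, y⁆ = c ^ i := by
    intro i j k
    rw [comm_mul_left hcen, comm_mul_left hcen, comm_zpow_left hcen, comm_zpow_left hcen, comm_zpow_left hcen, ← hc,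
      commutatorElement_self, one_zpow, mul_one, commutatorElement_eq_one_iff_mul_comm.2 (hcc y).symm, one_zpow, mul_one]
  have hcommx : ∀ i j k : ℤ, ⁅x₀, x₀ ^ i * y ^ j * c ^ k⁆ = c ^ j := by
    intro i j k
    rw [comm_mul_right hcen, comm_mul_right hcen, comm_zpow_right hcen, comm_zpow_right hcen, comm_zpow_right hcen, ← hc,
      commutatorElement_self, one_zpow, one_mul, commutatorElement_eq_one_iff_mul_comm.2 (hcc x₀), one_zpow, mul_one]
  refine ⟨E, A, hAZ, fun a ha => hMp a (Subgroup.mem_center_iff.1 (hAZ ha) y).symm, ?_, ?_, hx0E, hyE, ?_⟩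
  · rw [Subgroup.eq_bot_iff_forall]
    rintro x ⟨hxE, hxA⟩
    have hxA : x ∈ A := hxA
    obtain ⟨i, j, k, rfl⟩ := hxE
    have hxZ := hAZ hxA
    have h1 : c ^ i = 1 := by
      rw [← hcommy i j k, commutatorElement_eq_one_iff_mul_comm]
      exact (Subgroup.mem_center_iff.1 hxZ y).symm
    have h2 : c ^ j = 1 := by
      rw [← hcommx i j k, commutatorElement_eq_one_iff_mul_comm]
      exact Subgroup.mem_center_iff.1 hxZ x₀
    have h3 : x₀ ^ i = 1 := by
      obtain ⟨l, hl⟩ := hczero i h1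
      rw [hl, zpow_mul, zpow_natCast, hx, one_zpow]
    have h4 : y ^ j = 1 := by
      obtain ⟨l, hl⟩ := hczero j h2
      rw [hl, zpow_mul, zpow_natCast, hyp, one_zpow]
    rw [h3, h4, one_mul, one_mul] at hxA ⊢
    by_contra hk1
    apply hcA
    have hk : ¬ (p : ℤ) ∣ k := by
      rintro ⟨l, rfl⟩
      exact hk1 (by rw [zpow_mul, zpow_natCast, hcp, one_zpow])
    have hcop : IsCoprime k (p : ℤ) := by
      rw [isCoprime_comm]
      exact (Nat.prime_iff_prime_int.1 hp.out).coprime_iff_not_dvd.2 hk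
    obtain ⟨u, v, huv⟩ := hcop
    have h5 : c ^ (u * k + v * p) = c := by rw [huv, zpow_one]
    rw [zpow_add, mul_comm u k, zpow_mul, mul_comm v, zpow_mul c (p : ℤ), zpow_natCast, hcp, one_zpow, mul_one] at h5
    rw [← h5]; exact A.zpow_mem hxA u
  · intro x
    obtain ⟨i, j, w, hw, rfl⟩ := hX2 x
    obtain ⟨k, a, ha, rfl⟩ := hAdec w hw
    exact ⟨x₀ ^ i * y ^ j * c ^ k, ⟨i, j, k, rfl⟩, a, ha, by group⟩
  · have hpp := hp.out.pos
    let φ : Fin p × Fin p × Fin p → E := fun a => ⟨x₀ ^ ((a.1 : ℕ) : ℤ) * y ^ ((a.2.1 : ℕ) : ℤ) * c ^ ((a.2.2 : ℕ) : ℤ), _, _, _, rfl⟩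
    have hmod : ∀ w : X, w ^ p = 1 → ∀ i : ℤ, ∃ a : Fin p, w ^ i = w ^ ((a : ℕ) : ℤ) := by
      intro w hw i
      have h1 : 0 ≤ i % p := Int.emod_nonneg _ (by exact_mod_cast hpp.ne')
      have h2 : i % p < p := Int.emod_lt_of_pos _ (by exact_mod_cast hpp)
      refine ⟨⟨(i % p).toNat, by omega⟩, ?_⟩
      show w ^ i = w ^ (((i % p).toNat : ℕ) : ℤ)
      rw [Int.toNat_of_nonneg h1]
      conv_lhs => rw [← Int.emod_add_mul_ediv i p]
      rw [zpow_add, zpow_mul, zpow_natCast, hw, one_zpow, mul_one]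
    have hinj : ∀ a b : Fin p, c ^ ((a : ℕ) : ℤ) = c ^ ((b : ℕ) : ℤ) → a = b := by
      intro a b h
      rw [zpow_natCast, zpow_natCast] at h
      apply Fin.ext
      exact pow_injOn_Iio_orderOf (by rw [Set.mem_Iio, hcord]; exact a.2) (by rw [Set.mem_Iio, hcord]; exact b.2) h
    have hφ : Function.Bijective φ := by
      constructor
      · rintro ⟨a, b, d⟩ ⟨a', b', d'⟩ h
        have h1 : x₀ ^ ((a : ℕ) : ℤ) * y ^ ((b : ℕ) : ℤ) * c ^ ((d : ℕ) : ℤ) =
          x₀ ^ ((a' : ℕ) : ℤ) * y ^ ((b' : ℕ) : ℤ) * c ^ ((d' : ℕ) : ℤ) := congrArg Subtype.val h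
        have ha : a = a' := by
          apply hinj
          rw [← hcommy a b d, h1, hcommy]
        have hb : b = b' := by
          apply hinj
          rw [← hcommx a b d, h1, hcommx]
        rw [ha, hb] at h1
        have hd : d = d' := hinj _ _ (mul_left_cancel h1)
        rw [ha, hb, hd]
      · rintro ⟨_, i, j, k, rfl⟩
        obtain ⟨a, ha⟩ := hmod x₀ hx i
        obtain ⟨b, hb⟩ := hmod y hyp j
        obtain ⟨d, hd⟩ := hmod c hcp k
        refine ⟨(a, b, d), Subtype.ext ?_⟩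
        show x₀ ^ ((a : ℕ) : ℤ) * y ^ ((b : ℕ) : ℤ) * c ^ ((d : ℕ) : ℤ) = x₀ ^ i * y ^ j * c ^ k
        rw [ha, hb, hd]
    rw [← Nat.card_congr (Equiv.ofBijective φ hφ), Nat.card_prod, Nat.card_prod, Nat.card_eq_fintype_card, Fintype.card_fin]
    ring

/-- the product decomposition as an isomorphism -/
theorem exists_prod {E A : Subgroup X} (hA : ∀ a ∈ A, a ∈ Subgroup.center X) (hEA : E ⊓ A = ⊥)
    (hdec : ∀ x, ∃ e ∈ E, ∃ a ∈ A, e * a = x) : Nonempty (X ≃* E × A) := by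
  let f : E × A →* X :=
    { toFun := fun x => x.1 * x.2
      map_one' := by simp
      map_mul' := by
        rintro ⟨e, a⟩ ⟨e', a'⟩
        show (e : X) * e' * (a * a') = e * a * (e' * a')
        have h1 := Subgroup.mem_center_iff.1 (hA a a.2) e'
        calc (e : X) * e' * (a * a') = e * (e' * a) * a' := by group
          _ = e * (a * e') * a' := by rw [h1]
          _ = _ := by group }
  have hf : Function.Bijective f := by
    constructor
    · rw [injective_iff_map_eq_one]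
      rintro ⟨e, a⟩ h
      have h1 : (e : X) * a = 1 := h
      have h2 : (a : X) ∈ E ⊓ A := by
        refine ⟨?_, a.2⟩
        have : (a : X) = (e : X)⁻¹ := (inv_eq_of_mul_eq_one_right h1).symm
        rw [this]; exact E.inv_mem e.2
      rw [hEA, Subgroup.mem_bot] at h2
      rw [h2, mul_one] at h1
      exact Prod.ext (Subtype.ext h1) (Subtype.ext h2)
    · intro x
      obtain ⟨e, he, a, ha, rfl⟩ := hdec x
      exact ⟨(⟨e, he⟩, ⟨a, ha⟩), rfl⟩
  exact ⟨(MulEquiv.ofBijective f hf).symm⟩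

/-- a type synonym -/
def Sm (n : ℕ) : Type := Fin n

/-- replace a finite group by one in `Type` -/
theorem exists_small (G : Type*) [Group G] [Finite G] : ∃ (E : Type) (_ : Group E), Nonempty (G ≃* E) := by
  let e : Sm (Nat.card G) ≃ G := (Finite.equivFin G).symm
  letI := e.group
  exact ⟨Sm (Nat.card G), inferInstance, ⟨(e.mulEquiv).symm⟩⟩

theorem exists_small_comm (G : Type*) [Group G] [Finite G] (hG : ∀ a b : G, a * b = b * a) :
    ∃ (E : Type) (_ : CommGroup E), Nonempty (G ≃* E) := by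
  obtain ⟨E, _, ⟨e⟩⟩ := exists_small G
  exact ⟨E, { (inferInstance : Group E) with
    mul_comm := fun a b => by
      obtain ⟨a, rfl⟩ := e.surjective a
      obtain ⟨b, rfl⟩ := e.surjective b
      rw [← map_mul, ← map_mul, hG] }, ⟨e⟩⟩

end Cfsg.Agent.H1.FusE
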