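import Mathlib
import Cfsg.Agent.H1_FusE
import Cfsg.Agent.H1_FusZ3
import Cfsg.Agent.H4_BaerSuzuki
import Cfsg.Agent.H1_Nilp

/-! Strongly closed generalized extraspecial subgroups. -/

set_option autoImplicit false
set_option linter.all false
open Cfsg Cfsg.FusionSystem

namespace Cfsg.Agent.H1.FusE

open Cfsg.Agent.H27.Grp Cfsg.Agent.H27.Fus Cfsg.Agent.H1.FusA Cfsg.Agent.H1.FusT Cfsg.Agent.H1.FusZ
open scoped commutatorElement

universe u

variable {Ω : Type u} [Group Ω] {S : Subgroup Ω}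
variable {F : FusionSystem S} {P Q R V D M : Subgroup Ω} {f g : Ω → Ω} {p : ℕ}

/-- generalized extraspecial data -/
structure GE (p : ℕ) (P D : Subgroup Ω) : Prop where
  DP : D ≤ P
  cD : Nat.card D = p
  cen : ∀ d ∈ D, ∀ x ∈ P, x * d = d * x
  comm : ∀ x ∈ P, ∀ y ∈ P, x * y * x⁻¹ * y⁻¹ ∈ D
  pow : ∀ x ∈ P, x ^ p ∈ D
  ne : ∃ x ∈ P, ∃ y ∈ P, x * y ≠ y * x

variable [hp : Fact p.Prime] [Finite S]

/-- `α` normalises `Aut_P(M)` up to `Aut_S(M)`: it extends to `P` -/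
theorem ext_P (hS : IsPGroup p S) (hF : F.IsSaturated p) (hP : F.StronglyClosed P) (hMP : M ≤ P)
    (hM : ∀ s ∈ S, s ∈ Subgroup.normalizer (M : Set Ω)) {α : MulAut M} (hα : α ∈ F.autGroup M)
    (h : ∀ τ ∈ autInducedBy P M, α * τ * α⁻¹ ∈ autInducedBy S M) :
    ∃ g, Iso F P P g ∧ ∀ x : M, g x = α x := by
  have hPS := hP.1
  have hMS := hMP.trans hPS
  have hfn : F.IsFullyNormalized M := by
    refine ⟨hMS, fun Q hQ => ?_⟩
    have h1 : normalizerIn S M = S := le_antisymm nrm_le fun s hs => ⟨hs, hM s hs⟩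
    rw [h1]
    exact card_le_of_le nrm_le
  have hi := (mem_autGroup_iff hMS).1 hα
  have hext : P ≤ ext S M (totA α) := by
    intro s hs
    refine mem_ext.2 ⟨hPS hs, hM s (hPS hs), ?_⟩
    obtain ⟨t, ht, htn⟩ := mem_autInducedBy.1 (h _ (cjA_mem (hM s (hPS hs)) hs))
    refine ⟨t, ht, fun x hx => ?_⟩
    have h1 := htn (α ⟨x, hx⟩)
    have h2 : (α * cjA M s (hM s (hPS hs)) * α⁻¹) (α ⟨x, hx⟩) = α (cjA M s (hM s (hPS hs)) ⟨x, hx⟩) := by
      rw [MulAut.mul_apply, MulAut.mul_apply, MulAut.inv_apply_self]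
    rw [h2] at h1
    rw [totA_of_mem _ hx, ← h1]
    have h3 : s * x * s⁻¹ ∈ M := (Subgroup.mem_normalizer_iff.1 (hM s (hPS hs)) x).1 hx
    rw [totA_of_mem _ h3]
    rfl
  obtain ⟨g, hg, hgf⟩ := receptive_ext' (fn_receptive hS hF hfn) hi hext
  have hfP : Finite P := finite_of_le hPS
  refine ⟨g, iso_of_card_le hg (fun x hx => (stronglyClosed_iff.1 hP).2 P g hg x hx hx) le_rfl, fun x => ?_⟩
  rw [hgf x x.2, totA_apply]

omit [Finite S] in
/-- the action of `P` on the centraliser `M` of `y` -/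
theorem ge_tv (hG : GE p P D) [Finite P] {y x₁ : Ω} (hy : y ∈ P) (hMP : M ≤ P)
    (hMm : ∀ x, x ∈ M ↔ x ∈ P ∧ x * y = y * x)
    (hMc : ∀ a ∈ M, ∀ b ∈ M, a * b = b * a) (hx₁ : x₁ ∈ P) (hxy : x₁ * y ≠ y * x₁) :
    Tv p (autInducedBy P M) D (centralizerIn P P) := by
  have hZM : centralizerIn P P ≤ M := fun x hx => (hMm x).2 ⟨cen_le hx, (cen_comm hx hy).symm⟩
  have hDZ : D ≤ centralizerIn P P := fun x hx => mem_cen.2 ⟨hG.DP hx, fun y hy => hG.cen x hx y hy⟩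
  have hfM : Finite M := finite_of_le hMP
  have hyM : y ∈ M := (hMm y).2 ⟨hy, rfl⟩
  -- commutator form
  have hcl : ∀ a ∈ P, ∀ b ∈ P, ∀ c ∈ P, (a * b) * c * (a * b)⁻¹ * c⁻¹ = (a * c * a⁻¹ * c⁻¹) * (b * c * b⁻¹ * c⁻¹) := by
    intro a ha b hb c hc
    have h1 := hG.cen _ (hG.comm b hb c hc) a ha
    calc (a * b) * c * (a * b)⁻¹ * c⁻¹ = a * (b * c * b⁻¹ * c⁻¹) * (c * a⁻¹ * c⁻¹) := by group
      _ = (b * c * b⁻¹ * c⁻¹) * a * (c * a⁻¹ * c⁻¹) := by rw [h1]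
      _ = (b * c * b⁻¹ * c⁻¹) * (a * c * a⁻¹ * c⁻¹) := by group
      _ = _ := hG.cen _ (hG.comm a ha c hc) _ (hG.DP (hG.comm b hb c hc))
  refine ⟨hDZ, hZM, ?_, ?_, hG.cD, ?_, ?_⟩
  · intro τ hτ x hx
    obtain ⟨g, hg, h⟩ := mem_autInducedBy.1 hτ
    apply Subtype.ext
    rw [h x, cen_comm hx hg]
    group
  · intro τ hτ x
    obtain ⟨g, hg, h⟩ := mem_autInducedBy.1 hτ
    rw [h x]
    have h1 := hG.comm (x : Ω)⁻¹ (P.inv_mem (hMP x.2)) g hg
    rwa [inv_inv, mul_assoc, mul_assoc, ← mul_assoc g] at h1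
  · -- the homomorphism `m ↦ [m, x₁]`
    let φ : M →* D :=
      { toFun := fun m => ⟨m * x₁ * (m : Ω)⁻¹ * x₁⁻¹, hG.comm _ (hMP m.2) _ hx₁⟩
        map_one' := by apply Subtype.ext; simp
        map_mul' := fun a b => Subtype.ext (hcl a (hMP a.2) b (hMP b.2) x₁ hx₁) }
    have hker : φ.ker = (centralizerIn P P).subgroupOf M := by
      ext m
      rw [MonoidHom.mem_ker, Subgroup.mem_subgroupOf]
      have e1 : φ m = 1 ↔ (m : Ω) * x₁ * (m : Ω)⁻¹ * x₁⁻¹ = 1 := ⟨fun h => congrArg Subtype.val h, fun h => Subtype.ext h⟩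
      rw [e1]
      constructor
      · intro h
        rw [mul_inv_eq_one, mul_inv_eq_iff_eq_mul] at h
        refine mem_cen.2 ⟨hMP m.2, fun g hg => ?_⟩
        -- write `g = x₁ ^ i * m'`
        have h2 : (x₁ * y * x₁⁻¹ * y⁻¹) ≠ 1 := by
          intro h3; rw [mul_inv_eq_one, mul_inv_eq_iff_eq_mul] at h3; exact hxy h3
        obtain ⟨k, hk⟩ := exists_npow hG.cD (hG.comm x₁ hx₁ y hy) h2 (hG.comm g hg y hy)
        have h4 : (x₁ ^ k) * y * (x₁ ^ k)⁻¹ * y⁻¹ = (x₁ * y * x₁⁻¹ * y⁻¹) ^ k := by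
          clear hk
          induction k with
          | zero => simp
          | succ k ih =>
            rw [pow_succ, hcl _ (P.pow_mem hx₁ k) _ hx₁ _ hy, ih, pow_succ]
        have h5 : (x₁ ^ k)⁻¹ * g ∈ M := by
          refine (hMm _).2 ⟨P.mul_mem (P.inv_mem (P.pow_mem hx₁ k)) hg, ?_⟩
          have h6 : x₁ ^ k * y * (x₁ ^ k)⁻¹ * y⁻¹ = g * y * g⁻¹ * y⁻¹ := by rw [h4, hk]
          have h7 : x₁ ^ k * y * (x₁ ^ k)⁻¹ = g * y * g⁻¹ := mul_right_cancel h6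
          have h8 : y = (x₁ ^ k)⁻¹ * g * y * ((x₁ ^ k)⁻¹ * g)⁻¹ := by
            calc y = (x₁ ^ k)⁻¹ * (x₁ ^ k * y * (x₁ ^ k)⁻¹) * x₁ ^ k := by group
              _ = _ := by rw [h7]; group
          nth_rewrite 2 [h8]
          group
        have h9 := hMc _ h5 _ m.2
        have h10 : Commute (m : Ω) (x₁ ^ k) := (show Commute (m : Ω) x₁ from h).pow_right k
        have h11 : Commute (m : Ω) g := by
          have : g = x₁ ^ k * ((x₁ ^ k)⁻¹ * g) := by group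
          rw [this]
          exact h10.mul_right (show Commute _ _ from h9.symm)
        exact h11.symm
      · intro h
        rw [mul_inv_eq_one, mul_inv_eq_iff_eq_mul]
        exact (cen_comm h hx₁).symm
    have hsurj : Function.Surjective φ := by
      intro d
      have h2 : (y * x₁ * y⁻¹ * x₁⁻¹) ≠ 1 := by
        intro h3; rw [mul_inv_eq_one, mul_inv_eq_iff_eq_mul] at h3; exact hxy h3.symm
      obtain ⟨k, hk⟩ := exists_npow hG.cD (hG.comm y hy x₁ hx₁) h2 d.2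
      refine ⟨⟨y, hyM⟩ ^ k, ?_⟩
      rw [map_pow]
      exact Subtype.ext hk
    have h1 := (φ.ker).index_mul_card
    rw [Subgroup.index_ker, MonoidHom.range_eq_top.2 hsurj, Subgroup.card_top, hG.cD, hker,
      Nat.card_congr (Subgroup.subgroupOfEquivOfLe hZM).toEquiv] at h1
    exact h1.symm
  · intro x hx
    by_contra hcon
    push Not at hcon
    apply hx
    refine mem_cen.2 ⟨hMP x.2, fun g hg => ?_⟩
    have hgM : g ∈ Subgroup.normalizer (M : Set Ω) := by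
      rw [Subgroup.mem_normalizer_iff]
      intro a
      have e1 : ∀ g ∈ P, ∀ a ∈ M, g * a * g⁻¹ ∈ M := by
        intro g hg a ha
        have h1 := hG.comm g hg a (hMP ha)
        have h2 := M.mul_mem (hZM (hDZ h1)) ha
        rwa [inv_mul_cancel_right] at h2
      constructor
      · exact e1 g hg a
      · intro h
        have := e1 g⁻¹ (P.inv_mem hg) _ h
        have e2 : g⁻¹ * (g * a * g⁻¹) * g⁻¹⁻¹ = a := by group
        rwa [e2] at this
    have h1 := congrArg Subtype.val (hcon _ (cjA_mem hgM hg))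
    rw [cjA_apply] at h1
    rw [← mul_inv_eq_iff_eq_mul]; exact h1

end Cfsg.Agent.H1.FusE
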