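import Mathlib
import Cfsg.Agent.H1_FusE2

/-! Strongly closed generalized extraspecial subgroups, continued. -/

set_option autoImplicit false
set_option linter.all false
open Cfsg Cfsg.FusionSystem

namespace Cfsg.Agent.H1.FusE

open Cfsg.Agent.H27.Grp Cfsg.Agent.H27.Fus Cfsg.Agent.H1.FusA Cfsg.Agent.H1.FusT Cfsg.Agent.H1.FusZ
open scoped commutatorElement

universe u

variable {Ω : Type u} [Group Ω] {S : Subgroup Ω}
variable {F : FusionSystem S} {P Q R V D M : Subgroup Ω} {f g : Ω → Ω} {p : ℕ}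
variable [hp : Fact p.Prime] [Finite S]

/-- odd part of the argument -/
theorem ge_odd (hS : IsPGroup p S) (hF : F.IsSaturated p) (hp2 : p ≠ 2) (hP : F.StronglyClosed P) (hG : GE p P D)
    (hinv : ∀ f, Iso F P P f → ∀ x ∈ D, f x ∈ D) {y x₁ : Ω} (hy : y ∈ P) (hMP : M ≤ P)
    (hMm : ∀ x, x ∈ M ↔ x ∈ P ∧ x * y = y * x)
    (hMc : ∀ a ∈ M, ∀ b ∈ M, a * b = b * a) (hMp : ∀ a ∈ M, a ^ p = 1) (hx₁ : x₁ ∈ P) (hxy : x₁ * y ≠ y * x₁)
    (hM : ∀ s ∈ S, s ∈ Subgroup.normalizer (M : Set Ω))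
    {α : MulAut M} (hα : α ∈ F.autGroup M) (hD : ∃ d : M, (d : Ω) ∈ D ∧ (α d : Ω) ∉ D) :
    x₁ ^ p = 1 := by
  have hPS := hP.1
  have hMS := hMP.trans hPS
  have hfP : Finite P := finite_of_le hPS
  have hfM : Finite M := finite_of_le hMP
  have hfA : Finite (F.autGroup M) := finite_autGroup hMS
  have htv := ge_tv hG hy hMP hMm hMc hx₁ hxy
  set T := autInducedBy P M with hT
  have hTA : T ≤ F.autGroup M := by
    intro τ hτ
    obtain ⟨g, hg, h⟩ := mem_autInducedBy.1 hτ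
    exact autInducedBy_le_autGroup F hMS (mem_autInducedBy.2 ⟨g, hPS hg, h⟩)
  have hVp : ∃ n, ∀ x ∈ M, x ^ (p ^ n) = 1 := ⟨1, fun x hx => by rw [pow_one]; exact hMp x hx⟩
  have hfn : F.IsFullyNormalized M := by
    refine ⟨hMS, fun Q hQ => ?_⟩
    have h1 : normalizerIn S M = S := le_antisymm nrm_le fun s hs => ⟨hs, hM s hs⟩
    rw [h1]
    exact card_le_of_le nrm_le
  -- a pair of conjugates which does not generate a `p`-group
  obtain ⟨β, hβ, hβT⟩ : ∃ β ∈ F.autGroup M, ¬ IsPGroup p (T ⊔ cj β T : Subgroup (MulAut M)) := by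
    by_contra hcon
    push Not at hcon
    have hTp : IsPGroup p T := ((hcon 1 (Subgroup.one_mem _)).to_le le_sup_left)
    obtain ⟨N, hN1, hN2, hN3⟩ := Cfsg.Agent.H4.BaerSuzuki.baer_suzuki (G := F.autGroup M) (p := p) (T.subgroupOf (F.autGroup M))
      (hTp.comap_of_injective _ (Subgroup.subtype_injective _)) (by
        intro g
        have h1 := hcon g g.2
        have h2 : (T.subgroupOf (F.autGroup M) ⊔ (T.subgroupOf (F.autGroup M)).map (MulAut.conj g).toMonoidHom) ≤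
            (T ⊔ cj (g : MulAut M) T : Subgroup (MulAut M)).subgroupOf (F.autGroup M) := by
          refine sup_le ?_ ?_
          · intro x hx
            exact Subgroup.mem_sup_left (Subgroup.mem_subgroupOf.1 hx)
          · rintro _ ⟨x, hx, rfl⟩
            exact Subgroup.mem_sup_right (conj_mem_cj (Subgroup.mem_subgroupOf.1 hx))
        exact (h1.comap_of_injective _ (Subgroup.subtype_injective _)).to_le h2)
    have hsyl : IsSyl p (autInducedBy S M) (F.autGroup M) :=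
      (isFullyAutomized_iff.1 (fn_automized hS hF hfn)).2
    have hNle : N.map (F.autGroup M).subtype ≤ autInducedBy S M := by
      refine hsyl.normal_le (Subgroup.map_subtype_le _) ?_ (hN2.map _)
      intro g hg
      rw [Subgroup.mem_normalizer_iff]
      intro x
      constructor
      · rintro ⟨n, hn, rfl⟩
        exact ⟨⟨g, hg⟩ * n * ⟨g, hg⟩⁻¹, hN1.conj_mem n hn _, rfl⟩
      · rintro ⟨n, hn, hnx⟩
        refine ⟨⟨g, hg⟩⁻¹ * n * ⟨g, hg⟩, by simpa using hN1.conj_mem n hn ⟨g, hg⟩⁻¹, ?_⟩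
        have h1 : (n : MulAut M) = g * x * g⁻¹ := hnx
        show g⁻¹ * (n : MulAut M) * g = x
        rw [h1]; group
    obtain ⟨d, hd, hαd⟩ := hD
    obtain ⟨g, hg, hgα⟩ := ext_P hS hF hP hMP hM hα (by
      intro τ hτ
      apply hNle
      exact ⟨⟨α, hα⟩ * ⟨τ, hTA hτ⟩ * ⟨α, hα⟩⁻¹, hN1.conj_mem _ (hN3 (Subgroup.mem_subgroupOf.2 hτ)) _, rfl⟩)
    apply hαd
    rw [← hgα]
    exact hinv g hg _ hd
  have h1 : ¬ aim β D ≤ centralizerIn P P := fun h => hβT (htv.pair hVp (htv.cj β) h)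
  have h2 : ¬ D ≤ aim β (centralizerIn P P) := fun h => hβT (by
    rw [sup_comm]; exact (htv.cj β).pair hVp htv h)
  obtain ⟨ε, hε, hε1, hε2, hε3⟩ := htv.exists_neg hMc (htv.cj β) h1 h2
  have hεA : ε ∈ F.autGroup M := by
    refine (sup_le hTA ?_ : (T ⊔ cj β T : Subgroup (MulAut M)) ≤ F.autGroup M) hε
    rintro _ ⟨τ, hτ, rfl⟩
    exact Subgroup.mul_mem _ (Subgroup.mul_mem _ hβ (hTA hτ)) (Subgroup.inv_mem _ hβ)
  have hβtv := htv.cj β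
  have hi1 := inf_bot_of_prime hβtv.cR h1
  have hi2 := inf_bot_of_prime htv.cR h2
  -- `ε` commutes with `T`
  have hcm : ∀ τ ∈ T, ε * τ = τ * ε := by
    intro τ hτ
    ext x
    obtain ⟨b, hb, z, hz, hbz⟩ := exists_mul (hβtv.RZ.trans hβtv.ZV) htv.ZV hβtv.cR htv.cZ hi1 x.2
    obtain ⟨a, ha, c, hc, hac⟩ := exists_mul (htv.RZ.trans htv.ZV) hβtv.ZV htv.cR hβtv.cZ hi2 (htv.ZV hz)
    have hbM : b ∈ M := (hβtv.RZ.trans hβtv.ZV) hb
    have haM : a ∈ M := (htv.RZ.trans htv.ZV) ha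
    have hcM : c ∈ M := hβtv.ZV hc
    have hcZ : c ∈ centralizerIn P P := by
      have : c = a⁻¹ * z := by rw [← hac]; group
      rw [this]; exact Subgroup.mul_mem _ (Subgroup.inv_mem _ (htv.RZ ha)) hz
    have hx : x = (⟨b, hbM⟩ : M) * (⟨a, haM⟩ * ⟨c, hcM⟩) := Subtype.ext (by
      show (x : Ω) = b * (a * c)
      rw [hac, hbz])
    have e1 : τ ⟨a, haM⟩ = ⟨a, haM⟩ := htv.fix τ hτ _ (htv.RZ ha)
    have e2 : τ ⟨c, hcM⟩ = ⟨c, hcM⟩ := htv.fix τ hτ _ hcZ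
    have e3 : ε ⟨a, haM⟩ = ⟨a, haM⟩⁻¹ := hε1 _ ha
    have e4 : ε ⟨b, hbM⟩ = ⟨b, hbM⟩⁻¹ := hε2 _ hb
    have e5 : ε ⟨c, hcM⟩ = ⟨c, hcM⟩ := hε3 _ hcZ hc
    have e6 : ε ((⟨b, hbM⟩ : M)⁻¹ * τ ⟨b, hbM⟩) = ((⟨b, hbM⟩ : M)⁻¹ * τ ⟨b, hbM⟩)⁻¹ := hε1 _ (htv.quo τ hτ _)
    have e7 : ε (τ ⟨b, hbM⟩) = (τ ⟨b, hbM⟩)⁻¹ := by
      rw [map_mul, map_inv, e4, inv_inv, mul_inv_rev, inv_inv] at e6
      have e8 : (τ ⟨b, hbM⟩)⁻¹ * ⟨b, hbM⟩ = ⟨b, hbM⟩ * (τ ⟨b, hbM⟩)⁻¹ :=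
        Subtype.ext (hMc _ (SetLike.coe_mem _) _ (SetLike.coe_mem _))
      rw [e8] at e6
      exact mul_left_cancel e6
    have e9 : ε (τ x) = τ (ε x) := by
      rw [hx]
      simp only [map_mul, e1, e2, e3, e4, e5, e7, map_inv]
    show ((ε (τ x) : M) : Ω) = (τ (ε x) : M)
    rw [e9]
  obtain ⟨g, hg, hgε⟩ := ext_P hS hF hP hMP hM hεA (by
    intro τ hτ
    rw [hcm τ hτ, mul_inv_cancel_right]
    obtain ⟨g, hg, h⟩ := mem_autInducedBy.1 hτ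
    exact mem_autInducedBy.2 ⟨g, hPS hg, h⟩)
  -- `g x₁ = x₁ * m`
  have hgm : ∀ m : M, g x₁ * m * (g x₁)⁻¹ = x₁ * m * x₁⁻¹ := by
    intro m
    have hx₁n := hM x₁ (hPS hx₁)
    have h3 := congrArg (fun γ : MulAut M => ((γ (ε⁻¹ m) : M) : Ω)) (hcm _ (cjA_mem hx₁n hx₁))
    simp only [MulAut.mul_apply, cjA_apply, MulAut.apply_inv_self] at h3
    rw [← h3, ← hgε, cjA_apply]
    have h4 : ((ε⁻¹ m : M) : Ω) ∈ P := hMP (SetLike.coe_mem _)
    rw [hg.map.conj hx₁ h4, hgε, MulAut.apply_inv_self]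
  set m := x₁⁻¹ * g x₁ with hm
  have hgP : g x₁ ∈ P := hg.maps x₁ hx₁
  have hmM : m ∈ M := by
    refine (hMm _).2 ⟨P.mul_mem (P.inv_mem hx₁) hgP, ?_⟩
    have h3 := hgm ⟨y, (hMm y).2 ⟨hy, rfl⟩⟩
    have h4 : g x₁ * y * (g x₁)⁻¹ = x₁ * y * x₁⁻¹ := h3
    calc m * y = x₁⁻¹ * (g x₁ * y * (g x₁)⁻¹) * g x₁ := by rw [hm]; group
      _ = x₁⁻¹ * (x₁ * y * x₁⁻¹) * g x₁ := by rw [h4]
      _ = y * m := by rw [hm]; group
  have hcen : ∀ a b : P, ⁅a, b⁆ ∈ Subgroup.center P := by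
    intro a b
    rw [Subgroup.mem_center_iff]
    intro c
    exact Subtype.ext (hG.cen _ (hG.comm a a.2 b b.2) c c.2)
  have hDp : ∀ d ∈ D, d ^ p = 1 := by
    intro d hd
    have := pow_card_eq_one' (x := (⟨d, hd⟩ : D))
    rw [hG.cD] at this
    exact congrArg Subtype.val this
  have h5 : (x₁ * m) ^ p = x₁ ^ p * m ^ p := by
    have h6 := Cfsg.Agent.H2.Class.mul_pow_p hp.out hp2 hcen ⟨x₁, hx₁⟩ ⟨m, hMP hmM⟩ (by
      apply Subtype.ext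
      exact hDp _ (hG.comm m (hMP hmM) x₁ hx₁))
    exact congrArg Subtype.val h6
  have h7 : g x₁ = x₁ * m := by rw [hm]; group
  have h8 : g (x₁ ^ p) = x₁ ^ p := by rw [hg.map.pow hx₁, h7, h5, hMp m hmM, mul_one]
  have h9 : x₁ ^ p ∈ D := hG.pow x₁ hx₁
  have h10 : g (x₁ ^ p) = (x₁ ^ p)⁻¹ := by
    have h11 := hgε ⟨x₁ ^ p, (htv.RZ.trans htv.ZV) h9⟩
    rw [hε1 _ h9] at h11
    exact h11
  rw [h8] at h10
  have h12 : (x₁ ^ p) ^ 2 = 1 := by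
    rw [sq]; nth_rewrite 2 [h10]; exact mul_inv_cancel _
  have h13 := hDp _ h9
  have h14 : orderOf (x₁ ^ p) ∣ Nat.gcd 2 p := Nat.dvd_gcd (orderOf_dvd_of_pow_eq_one h12) (orderOf_dvd_of_pow_eq_one h13)
  have h15 : Nat.Coprime 2 p := by
    rw [Nat.coprime_comm]
    exact (Nat.coprime_primes hp.out Nat.prime_two).2 hp2
  rw [h15] at h14
  exact orderOf_eq_one_iff.1 (Nat.dvd_one.1 h14)

end Cfsg.Agent.H1.FusE
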