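import Mathlib
import Cfsg.Agent.H1_FusE3

/-! Strongly closed generalized extraspecial subgroups: conclusion. -/

set_option autoImplicit false
set_option linter.all false
open Cfsg Cfsg.FusionSystem

namespace Cfsg.Agent.H1.FusE

open Cfsg.Agent.H27.Grp Cfsg.Agent.H27.Fus Cfsg.Agent.H1.FusA Cfsg.Agent.H1.FusT Cfsg.Agent.H1.FusZ
open scoped commutatorElement

universe u

variable {Ω : Type u} [Group Ω] {S : Subgroup Ω}
variable {F : FusionSystem S} {P Q R V D M : Subgroup Ω} {f g : Ω → Ω} {p : ℕ}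
variable [hp : Fact p.Prime] [Finite S]

/-- either `D` is weakly closed or there is an exceptional configuration -/
theorem ge_weak (hS : IsPGroup p S) (hF : F.IsSaturated p) (hP : F.StronglyClosed P) (hG : GE p P D)
    (hinv : ∀ f, Iso F P P f → ∀ x ∈ D, f x ∈ D) (hw : ¬ F.WeaklyClosed D) :
    ∃ y ∈ P, ∃ x₀ ∈ P, x₀ * y ≠ y * x₀ ∧ x₀ ^ p = 1 ∧ (∀ a ∈ P, a * y = y * a → a ^ p = 1) ∧
      (∀ a ∈ P, ∀ b ∈ P, a * y = y * a → b * y = y * b → a * b = b * a) := by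
  have hPS := hP.1
  have hfP : Finite P := finite_of_le hPS
  have hDS := hG.DP.trans hPS
  have hsc := stronglyClosed_iff.1 hP
  have hDn : ∀ s ∈ S, ∀ d ∈ D, s * d * s⁻¹ ∈ D := by
    intro s hs d hd
    have h1 : Iso F P P (fun x => s * x * s⁻¹) :=
      iso_of_card_le (map_conj F hPS hs) (fun x hx => hsc.2 P _ (map_conj F hPS hs) x hx hx) le_rfl
    exact hinv _ h1 d hd
  have hDfn : F.IsFullyNormalized D := by
    refine ⟨hDS, fun Q hQ => ?_⟩
    have h1 : normalizerIn S D = S := le_antisymm nrm_le fun s hs => mem_nrm_of_forall hDS hs (hDn s hs)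
    rw [h1]
    exact card_le_of_le nrm_le
  rw [weaklyClosed_iff] at hw
  push Not at hw
  obtain ⟨f, hf, hfD⟩ := hw hDS
  have hQP : im D f ≤ P := by
    rw [im_le_iff hf]
    exact fun x hx => hsc.2 D f hf x hx (hG.DP hx)
  have hfDf : Finite D := finite_of_le hDS
  set Q := im D f with hQ
  have hQc : Nat.card Q = p := by rw [hQ, hf.card_im, hG.cD]
  obtain ⟨φ, hφ, hφi, -⟩ := fn_nrm_map hS hF hDfn (isConj_symm hf.iso.isConj)
  have hQD : Q ⊓ D = ⊥ := by
    apply inf_bot_of_prime hQc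
    intro h
    exact hfD (eq_of_le_of_card_le h (by rw [hQc, hG.cD]))
  obtain ⟨y, hyQ, hy1⟩ : ∃ y ∈ Q, y ≠ 1 := by
    by_contra hcon
    push Not at hcon
    have h1 : Q = ⊥ := (Subgroup.eq_bot_iff_forall _).2 hcon
    rw [h1, Subgroup.card_bot] at hQc
    exact hp.out.one_lt.ne hQc
  have hyP := hQP hyQ
  have hQy := eq_zpowers hQc hyQ hy1
  set M := P ⊓ Subgroup.centralizer {y} with hM
  have hMm : ∀ x, x ∈ M ↔ x ∈ P ∧ x * y = y * x := by
    intro x
    rw [hM, Subgroup.mem_inf, Subgroup.mem_centralizer_singleton_iff]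
  have hMP : M ≤ P := inf_le_left
  have hMN : M ≤ normalizerIn S Q := by
    intro x hx
    refine mem_nrm_of_forall (hQP.trans hPS) (hPS (hMP hx)) fun z hz => ?_
    have hz' := hz
    rw [hQy] at hz'
    obtain ⟨k, rfl⟩ := Subgroup.mem_zpowers_iff.1 hz'
    have h1 : Commute x (y ^ k) := (show Commute x y from ((hMm x).1 hx).2).zpow_right k
    rw [h1.eq, mul_inv_cancel_right]
    exact hz
  have hφM := hφ.mono hMN
  have hφP : ∀ x ∈ M, φ x ∈ P := fun x hx => hsc.2 M φ hφM x hx (hMP hx)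
  have hφQ : ∀ x ∈ M, φ x ∈ D → x ∈ Q := by
    intro x hx hxD
    obtain ⟨q, hq, hqx⟩ := hφi.surj _ hxD
    have hQM : Q ≤ M := by
      intro q hq
      refine (hMm q).2 ⟨hQP hq, ?_⟩
      rw [hQy] at hq
      obtain ⟨k, rfl⟩ := Subgroup.mem_zpowers_iff.1 hq
      exact ((Commute.refl y).zpow_left k)
    rw [← hφM.inj (hQM hq) hx hqx]
    exact hq
  have hMc : ∀ a ∈ M, ∀ b ∈ M, a * b = b * a := by
    intro a ha b hb
    have h1 : a * b * a⁻¹ * b⁻¹ ∈ M := M.mul_mem (M.mul_mem (M.mul_mem ha hb) (M.inv_mem ha)) (M.inv_mem hb)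
    have h2 : φ (a * b * a⁻¹ * b⁻¹) = φ a * φ b * (φ a)⁻¹ * (φ b)⁻¹ := by
      rw [hφM.mul (M.mul_mem (M.mul_mem ha hb) (M.inv_mem ha)) (M.inv_mem hb), hφM.mul (M.mul_mem ha hb) (M.inv_mem ha),
        hφM.mul ha hb, hφM.inv ha, hφM.inv hb]
    have h3 : a * b * a⁻¹ * b⁻¹ ∈ Q ⊓ D :=
      ⟨hφQ _ h1 (by rw [h2]; exact hG.comm _ (hφP a ha) _ (hφP b hb)), hG.comm _ (hMP ha) _ (hMP hb)⟩
    rw [hQD, Subgroup.mem_bot, mul_inv_eq_one, mul_inv_eq_iff_eq_mul] at h3
    exact h3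
  have hMp : ∀ a ∈ M, a ^ p = 1 := by
    intro a ha
    have h3 : a ^ p ∈ Q ⊓ D :=
      ⟨hφQ _ (M.pow_mem ha p) (by rw [hφM.pow ha]; exact hG.pow _ (hφP a ha)), hG.pow _ (hMP ha)⟩
    rwa [hQD, Subgroup.mem_bot] at h3
  obtain ⟨x₁, hx₁, hxy⟩ : ∃ x₁ ∈ P, x₁ * y ≠ y * x₁ := by
    by_contra hcon
    push Not at hcon
    obtain ⟨a, ha, b, hb, hab⟩ := hG.ne
    exact hab (hMc a ((hMm a).2 ⟨ha, hcon a ha⟩) b ((hMm b).2 ⟨hb, hcon b hb⟩))
  refine ⟨y, hyP, ?_⟩
  by_contra hcon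
  have hcon : ∀ x₀ ∈ P, x₀ ^ p = 1 → x₀ ∈ M := by
    intro x₀ h1 h2
    by_contra h3
    apply hcon
    refine ⟨x₀, h1, fun h4 => h3 ((hMm x₀).2 ⟨h1, h4⟩), h2, fun a ha hay => hMp a ((hMm a).2 ⟨ha, hay⟩),
      fun a ha b hb h4 h5 => hMc a ((hMm a).2 ⟨ha, h4⟩) b ((hMm b).2 ⟨hb, h5⟩)⟩
  have hyM : y ∈ M := (hMm y).2 ⟨hyP, rfl⟩
  have hx₁M : x₁ ∉ M := fun h => hxy ((hMm x₁).1 h).2
  by_cases hp2 : p = 2
  · subst hp2
    have hd1 : x₁ ^ 2 ≠ 1 := fun h => hx₁M (hcon x₁ hx₁ h)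
    have hd2 : x₁⁻¹ * y * x₁⁻¹⁻¹ * y⁻¹ ≠ 1 := by
      intro h
      rw [mul_inv_eq_one, mul_inv_eq_iff_eq_mul] at h
      apply hxy
      calc x₁ * y = x₁ * (y * x₁⁻¹) * x₁ := by group
        _ = x₁ * (x₁⁻¹ * y) * x₁ := by rw [h]
        _ = _ := by group
    obtain ⟨k, hk⟩ := exists_npow hG.cD (hG.comm _ (P.inv_mem hx₁) y hyP) hd2 (hG.pow x₁ hx₁)
    have hD2 : ∀ d ∈ D, d ^ 2 = 1 := by
      intro d hd
      have := pow_card_eq_one' (x := (⟨d, hd⟩ : D))
      rw [hG.cD] at this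
      exact congrArg Subtype.val this
    set c := x₁⁻¹ * y * x₁⁻¹⁻¹ * y⁻¹ with hc
    have hcD : c ∈ D := hG.comm _ (P.inv_mem hx₁) y hyP
    have h3 : c = x₁ ^ 2 := by
      rcases Nat.even_or_odd' k with ⟨l, hl | hl⟩
      · exfalso
        rw [hl, pow_mul, hD2 c hcD, one_pow] at hk
        exact hd1 hk.symm
      · rw [hl, pow_succ, pow_mul, hD2 c hcD, one_pow, one_mul] at hk
        exact hk
    have h4 : (x₁ * y) ^ 2 = 1 := by
      have h5 : (x₁ * y) ^ 2 = x₁ ^ 2 * c * y ^ 2 := by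
        rw [hc]; simp only [sq]; group
      rw [h5, ← h3, ← sq, hD2 c hcD, one_mul]
      exact hMp y hyM
    have h5 := hcon _ (P.mul_mem hx₁ hyP) h4
    apply hx₁M
    have := M.mul_mem h5 (M.inv_mem hyM)
    rwa [mul_inv_cancel_right] at this
  · apply hx₁M
    apply hcon x₁ hx₁
    have hMn : ∀ s ∈ S, s ∈ Subgroup.normalizer (M : Set Ω) := by
      intro s hs
      refine (mem_nrm_of_forall (hMP.trans hPS) hs fun a ha => ?_).2
      refine hcon _ (hsc.2 P _ (map_conj F hPS hs) a (hMP ha) (hMP ha)) ?_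
      rw [conj_pow, hMp a ha, mul_one, mul_inv_cancel]
    have hfM : Finite M := finite_of_le hMP
    have hi : Iso F M M φ := iso_of_card_le hφM (fun x hx => hcon _ (hφP x hx) (by
      rw [← hφM.pow hx, hMp x hx, hφM.one])) le_rfl
    refine ge_odd hS hF hp2 hP hG hinv hyP hMP hMm hMc hMp hx₁ hxy hMn (α := hi.symm.aut) hi.symm.aut_mem
      ⟨⟨φ y, hi.maps y hyM⟩, hφi.maps y hyQ, fun h => ?_⟩
    rw [Iso.aut_apply] at h
    have h1 : y ∈ D := by
      have h2 : finv M φ (φ y) = y := hi.finv_left hyM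
      rw [← h2]; exact h
    have h2 : y ∈ Q ⊓ D := ⟨hyQ, h1⟩
    rw [hQD, Subgroup.mem_bot] at h2
    exact hy1 h2

/-- the subgroup `D` -/
theorem ge_of (hS : IsPGroup p S) (hP : P ≤ S) (hge : frattini ↥P = commutator ↥P ∧ Nat.card ↥(commutator ↥P) = p) :
    GE p P ((commutator ↥P).map P.subtype) ∧ ∀ f, Iso F P P f → ∀ x ∈ (commutator ↥P).map P.subtype,
      f x ∈ (commutator ↥P).map P.subtype := by
  have hPp : IsPGroup p P := hS.to_le hP
  have hfP : Finite P := finite_of_le hP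
  have hnil : Group.IsNilpotent P := hPp.isNilpotent
  have hcen : commutator P ≤ Subgroup.center P := by
    have h1 : commutator P ≠ ⊥ := by
      intro h
      have := hge.2
      rw [h, Subgroup.card_bot] at this
      exact hp.out.one_lt.ne this
    have h2 := Cfsg.Agent.H1.Nilp.normal_inf_center_ne_bot (commutator P) h1
    by_contra h3
    exact h2 (inf_bot_of_prime hge.2 h3)
  refine ⟨⟨Subgroup.map_subtype_le _, ?_, ?_, ?_, ?_, ?_⟩, ?_⟩
  · rw [← hge.2]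
    exact (Nat.card_congr ((commutator P).equivMapOfInjective P.subtype P.subtype_injective).toEquiv).symm
  · rintro _ ⟨d, hd, rfl⟩ x hx
    exact congrArg Subtype.val (Subgroup.mem_center_iff.1 (hcen hd) ⟨x, hx⟩)
  · intro x hx y hy
    exact ⟨⁅⟨x, hx⟩, ⟨y, hy⟩⁆, Subgroup.commutator_mem_commutator (Subgroup.mem_top _) (Subgroup.mem_top _), rfl⟩
  · intro x hx
    refine ⟨⟨x, hx⟩ ^ p, ?_, rfl⟩
    rw [← hge.1]
    exact (Cfsg.Agent.H1.Nilp.commutator_le_frattini hPp).2 _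
  · by_contra hcon
    push Not at hcon
    have h1 : commutator P = ⊥ := by
      rw [commutator_eq_bot_iff_center_eq_top, Subgroup.eq_top_iff']
      intro a
      rw [Subgroup.mem_center_iff]
      intro b
      exact Subtype.ext (hcon b b.2 a a.2)
    have := hge.2
    rw [h1, Subgroup.card_bot] at this
    exact hp.out.one_lt.ne this
  · intro f hf x hx
    have h1 : ((((commutator ↥P).map P.subtype)).subgroupOf P).Characteristic := by
      have : (((commutator ↥P).map P.subtype)).subgroupOf P = commutator P := by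
        rw [Subgroup.subgroupOf, Subgroup.comap_map_eq_self_of_injective P.subtype_injective]
      rw [this]; infer_instance
    have h2 := hf.im_char (Subgroup.map_subtype_le _) h1
    rw [← h2]
    exact (hf.map.mono (Subgroup.map_subtype_le _)).apply_mem_im hx

/-- **Main theorem** -/
theorem ge_main (hS : IsPGroup p S) (hF : F.IsSaturated p) (hP : F.StronglyClosed P)
    (hge : frattini ↥P = commutator ↥P ∧ Nat.card ↥(commutator ↥P) = p) (hn : ¬ F.IsNormal P) :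
    ∃ y x₀ : P, x₀ * y ≠ y * x₀ ∧ x₀ ^ p = 1 ∧ (∀ a : P, a * y = y * a → a ^ p = 1) ∧
      (∀ a b : P, a * y = y * a → b * y = y * b → a * b = b * a) ∧ ∀ a b : P, ⁅a, b⁆ ∈ Subgroup.center P := by
  obtain ⟨hG, hinv⟩ := ge_of (F := F) hS hP.1 hge
  set D := (commutator ↥P).map P.subtype with hD
  have hcen : ∀ a b : P, ⁅a, b⁆ ∈ Subgroup.center P := by
    intro a b
    rw [Subgroup.mem_center_iff]
    intro c
    exact Subtype.ext (hG.cen _ (hG.comm a a.2 b b.2) c c.2)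
  by_cases hw : F.WeaklyClosed D
  · exfalso
    apply hn
    refine normal_of_fin_chain hS hF hP 2 ![⊥, D, P] rfl rfl ?_ ?_ ?_
    · rw [Fin.monotone_iff_le_succ]
      intro i
      fin_cases i
      · exact bot_le
      · exact hG.DP
    · intro i
      fin_cases i
      · show F.WeaklyClosed ⊥
        rw [weaklyClosed_iff]
        refine ⟨bot_le, fun f hf => ?_⟩
        rw [eq_bot_iff, im_le_iff hf]
        intro x hx
        rw [Subgroup.mem_bot.1 hx, hf.one]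
        exact Subgroup.one_mem _
      · exact hw
    · intro i
      fin_cases i
      · show ⁅P, D⁆ ≤ ⊥
        rw [Subgroup.commutator_le]
        intro x hx d hd
        rw [Subgroup.mem_bot, commutatorElement_eq_one_iff_mul_comm]
        exact hG.cen d hd x hx
      · show ⁅P, P⁆ ≤ D
        rw [Subgroup.commutator_le]
        exact fun x hx y hy => hG.comm x hx y hy
  · obtain ⟨y, hy, x₀, hx₀, h1, h2, h3, h4⟩ := ge_weak hS hF hP hG hinv hw
    refine ⟨⟨y, hy⟩, ⟨x₀, hx₀⟩, fun h => h1 (congrArg Subtype.val h), Subtype.ext h2, fun a ha =>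
      Subtype.ext (h3 a a.2 (congrArg Subtype.val ha)), fun a b ha hb => Subtype.ext (h4 a a.2 b b.2
        (congrArg Subtype.val ha) (congrArg Subtype.val hb)), hcen⟩

section fin

open Cfsg.Agent.H2.Class

variable {X : Type*} [Group X] [Finite X]

omit [Finite S] in
theorem exp_p (hp2 : p ≠ 2) (hD : Nat.card (commutator X) = p) (hcen : ∀ a b : X, ⁅a, b⁆ ∈ Subgroup.center X) {x₀ y : X}
    (hxy : x₀ * y ≠ y * x₀) (hx : x₀ ^ p = 1) (hMp : ∀ a : X, a * y = y * a → a ^ p = 1) (x : X) : x ^ p = 1 := by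
  have h1 : ∀ a b : X, ⁅a, b⁆ ∈ commutator X := fun a b =>
    Subgroup.commutator_mem_commutator (Subgroup.mem_top _) (Subgroup.mem_top _)
  have h2 : ⁅x₀, y⁆ ≠ 1 := by rwa [Ne, commutatorElement_eq_one_iff_mul_comm]
  obtain ⟨k, hk⟩ := exists_npow hD (h1 x₀ y) h2 (h1 x y)
  have h3 : (x₀ ^ (-(k : ℤ)) * x) * y = y * (x₀ ^ (-(k : ℤ)) * x) := by
    rw [← commutatorElement_eq_one_iff_mul_comm, Cfsg.Agent.H2.Class.comm_mul_left hcen, comm_zpow_left hcen, zpow_neg, zpow_natCast, hk]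
    exact inv_mul_cancel _
  have h4 := hMp _ h3
  have h5 : x = x₀ ^ k * (x₀ ^ (-(k : ℤ)) * x) := by group
  rw [h5, mul_pow_p hp.out hp2 hcen, h4, mul_one, ← pow_mul, mul_comm, pow_mul, hx, one_pow]
  have := pow_card_eq_one' (x := (⟨_, h1 (x₀ ^ (-(k : ℤ)) * x) (x₀ ^ k)⟩ : commutator X))
  rw [hD] at this
  exact congrArg Subtype.val this

omit [Finite S] in
/-- the final isomorphism types -/
theorem final (hD : Nat.card (commutator X) = p) (hcen : ∀ a b : X, ⁅a, b⁆ ∈ Subgroup.center X) {x₀ y : X}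
    (hxy : x₀ * y ≠ y * x₀) (hx : x₀ ^ p = 1) (hMp : ∀ a : X, a * y = y * a → a ^ p = 1)
    (hMc : ∀ a b : X, a * y = y * a → b * y = y * b → a * b = b * a) :
    ∃ (A : Type) (_ : CommGroup A), (∀ a : A, a ^ p = 1) ∧ (p = 2 → Nonempty (X ≃* DihedralGroup 4 × A)) ∧
      (p ≠ 2 → ∃ (E : Type) (_ : Group E), Cfsg.IsExtraspecial p E ∧ Nat.card E = p ^ 3 ∧ Monoid.exponent E = p ∧
        Nonempty (X ≃* E × A)) := by
  obtain ⟨E, A, hAZ, hAp, hEA, hdec, hx₀E, hyE, hcE⟩ := split hD hcen hxy hx hMp hMc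
  obtain ⟨e⟩ := exists_prod hAZ hEA hdec
  obtain ⟨A', _, ⟨eA⟩⟩ := exists_small_comm A fun a b => Subtype.ext (Subgroup.mem_center_iff.1 (hAZ b b.2) a)
  refine ⟨A', inferInstance, fun a => ?_, ?_, ?_⟩
  · obtain ⟨b, rfl⟩ := eA.surjective a
    rw [← map_pow, show b ^ p = 1 from Subtype.ext (hAp b b.2), map_one]
  · rintro rfl
    have h1 : y ^ 2 = 1 := hMp y rfl
    obtain ⟨eE⟩ := d8_of (G := E) (by rw [hcE]; norm_num) (u := ⟨x₀, hx₀E⟩) (v := ⟨y, hyE⟩)
      (Subtype.ext (by rw [← sq]; exact hx)) (Subtype.ext (by rw [← sq]; exact h1)) (fun h => hxy (congrArg Subtype.val h))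
    exact ⟨e.trans (eE.prodCongr eA)⟩
  · intro hp2
    obtain ⟨E', _, ⟨eE⟩⟩ := exists_small E
    have hn : ∃ x y : E', x * y ≠ y * x := by
      refine ⟨eE ⟨x₀, hx₀E⟩, eE ⟨y, hyE⟩, fun h => hxy ?_⟩
      rw [← map_mul, ← map_mul] at h
      exact congrArg Subtype.val (eE.injective h)
    have hc : Nat.card E' = p ^ 3 := by rw [← hcE]; exact (Nat.card_congr eE.toEquiv).symm
    have hf : Finite E' := Nat.finite_of_card_ne_zero (by rw [hc]; exact pow_ne_zero _ hp.out.ne_zero)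
    refine ⟨E', inferInstance, extraspecial_of_cube hc hn, hc, ?_, ⟨e.trans (eE.prodCongr eA)⟩⟩
    have h1 : Monoid.exponent E' ∣ p := by
      rw [Monoid.exponent_dvd_iff_forall_pow_eq_one]
      intro a
      obtain ⟨b, rfl⟩ := eE.surjective a
      rw [← map_pow, show b ^ p = 1 from Subtype.ext (exp_p hp2 hD hcen hxy hx hMp _), map_one]
    rcases (Nat.dvd_prime hp.out).1 h1 with h2 | h2
    · exfalso
      obtain ⟨a, b, hab⟩ := hn
      rw [Monoid.exp_eq_one_iff] at h2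
      exact hab (Subsingleton.elim _ _)
    · exact h2

end fin

end Cfsg.Agent.H1.FusE
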