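import Mathlib

/-! Exponents of nilpotent groups in terms of the exponent of the centre. -/

set_option autoImplicit false
set_option linter.all false

namespace Cfsg.Agent.H1.FusW

open scoped commutatorElement

variable {G : Type*} [Group G]

theorem pow_comm_central {a b : G} (h : ∀ g : G, g * ⁅a, b⁆ = ⁅a, b⁆ * g) (k : ℕ) : ⁅a ^ k, b⁆ = ⁅a, b⁆ ^ k := by
  have key : a ^ k * b = ⁅a, b⁆ ^ k * (b * a ^ k) := by
    induction k with
    | zero => simp
    | succ k ih =>
      have h1 : a * ⁅a, b⁆ ^ k = ⁅a, b⁆ ^ k * a := (show Commute a ⁅a, b⁆ from h a).pow_right k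
      calc a ^ (k + 1) * b = a * (a ^ k * b) := by rw [pow_succ', mul_assoc]
        _ = a * (⁅a, b⁆ ^ k * (b * a ^ k)) := by rw [ih]
        _ = (a * ⁅a, b⁆ ^ k) * (b * a ^ k) := by rw [mul_assoc]
        _ = ⁅a, b⁆ ^ k * a * (b * a ^ k) := by rw [h1]
        _ = ⁅a, b⁆ ^ k * (⁅a, b⁆ * (b * a)) * a ^ k := by rw [commutatorElement_def]; group
        _ = ⁅a, b⁆ ^ (k + 1) * (b * a ^ (k + 1)) := by rw [pow_succ, pow_succ']; group
  rw [commutatorElement_def, key]; group

/-- if `z ^ m = 1` on the centre then `x ^ m ∈ Z_k` for `x ∈ Z_{k+1}` -/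
theorem pow_mem_ucs {m : ℕ} (hm : ∀ z ∈ Subgroup.center G, z ^ m = 1) (k : ℕ) :
    ∀ x ∈ Subgroup.upperCentralSeries G (k + 1), x ^ m ∈ Subgroup.upperCentralSeries G k := by
  induction k with
  | zero =>
    intro x hx
    rw [zero_add, Subgroup.upperCentralSeries_one] at hx
    rw [Subgroup.upperCentralSeries_zero, Subgroup.mem_bot]
    exact hm x hx
  | succ k ih =>
    intro x hx
    rw [Subgroup.mem_upperCentralSeries_succ_iff]
    intro y
    have hxy := (Subgroup.mem_upperCentralSeries_succ_iff.1 hx) y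
    -- work modulo `Z_k`
    let q := QuotientGroup.mk' (Subgroup.upperCentralSeries G k)
    have hc : ∀ g : G ⧸ Subgroup.upperCentralSeries G k, g * ⁅q x, q y⁆ = ⁅q x, q y⁆ * g := by
      intro g
      obtain ⟨g, rfl⟩ := QuotientGroup.mk'_surjective _ g
      have h1 := (Subgroup.mem_upperCentralSeries_succ_iff.1 hxy) g
      have h2 : q (⁅x, y⁆ * g * ⁅x, y⁆⁻¹ * g⁻¹) = 1 := by
        rw [← MonoidHom.mem_ker, QuotientGroup.ker_mk']
        exact h1
      have h3 : ⁅q x, q y⁆ = q ⁅x, y⁆ := (map_commutatorElement q x y).symm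
      rw [h3]
      rw [map_mul, map_mul, map_mul, map_inv, map_inv, mul_inv_eq_one, mul_inv_eq_iff_eq_mul] at h2
      exact h2.symm
    have h4 : q ⁅x ^ m, y⁆ = (q ⁅x, y⁆) ^ m := by
      rw [map_commutatorElement, map_pow, pow_comm_central hc, map_commutatorElement]
    have h5 : q (⁅x, y⁆ ^ m) = 1 := by
      rw [← MonoidHom.mem_ker, QuotientGroup.ker_mk']
      exact ih _ hxy
    rw [← map_pow] at h4
    rw [h5] at h4
    rw [← MonoidHom.mem_ker, QuotientGroup.ker_mk'] at h4
    exact h4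

theorem pow_eq_one_of_ucs {m : ℕ} (hm : ∀ z ∈ Subgroup.center G, z ^ m = 1) (k : ℕ) :
    ∀ x ∈ Subgroup.upperCentralSeries G k, x ^ (m ^ k) = 1 := by
  induction k with
  | zero =>
    intro x hx
    rw [Subgroup.upperCentralSeries_zero, Subgroup.mem_bot] at hx
    rw [hx, one_pow]
  | succ k ih =>
    intro x hx
    rw [pow_succ', pow_mul]
    exact ih _ (pow_mem_ucs hm k x hx)

end Cfsg.Agent.H1.FusW
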