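import Mathlib
import Cfsg.Agent.H1_KW1

set_option autoImplicit false

open Pointwise
open scoped commutatorElement
open Cfsg.Agent.H1.Basic Cfsg.Agent.H1.Nilp Cfsg.Agent.H1.Hall Cfsg.Agent.H1.Factor
open Cfsg.Agent.H1.Wiel Cfsg.Agent.H1.SZ Cfsg.Agent.H1.Schmidt Cfsg.Agent.H1.Kegel

namespace Cfsg.Agent.H1.KW

section Gen

variable {G : Type*} [Group G]

theorem le_of_coprime_relIndex [Finite G] {K Y X : Subgroup G} (hK : K ≤ X) (hY : Y ≤ X)
    (hn : X ≤ Subgroup.normalizer (K : Set G)) (hc : (Nat.card K).Coprime (Y.relIndex X)) :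
    K ≤ Y := by
  rw [← Subgroup.relIndex_eq_one]
  have h2 : Y.relIndex (K ⊔ Y) = Y.relIndex K := by
    apply relIndex_eq_of_factor le_sup_left
    intro l hl
    rw [← SetLike.mem_coe, Subgroup.coe_mul_of_right_le_normalizer_left K Y (hY.trans hn)] at hl
    obtain ⟨x, hx, k, hk, rfl⟩ := Set.mem_mul.mp hl
    exact ⟨x, hx, by simpa using hk⟩
  have h3 : Y.relIndex (K ⊔ Y) ∣ Y.relIndex X := by
    rw [← Subgroup.relIndex_mul_relIndex Y (K ⊔ Y) X le_sup_right (sup_le hK hY)]
    exact Dvd.intro _ rfl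
  rw [h2] at h3
  exact Nat.eq_one_of_dvd_coprimes hc (Subgroup.relIndex_dvd_card _ _) h3

theorem le_of_le_normalizer_of_coprime [Finite G] {A X : Subgroup G}
    (hX : X ≤ Subgroup.normalizer (A : Set G)) (hc : (Nat.card X).Coprime A.index) : X ≤ A := by
  rw [← Subgroup.relIndex_eq_one, ← relIndex_sup_of_le_normalizer hX]
  refine Nat.eq_one_of_dvd_coprimes hc ?_ (Subgroup.relIndex_dvd_index_of_le le_sup_right)
  rw [relIndex_sup_of_le_normalizer hX]
  exact Subgroup.relIndex_dvd_card _ _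

theorem sy_normalizer_of [Finite G] {F X : Subgroup G} (hF : Group.IsNilpotent F)
    (h : X ≤ Subgroup.normalizer (F : Set G)) (s : ℕ) [Fact s.Prime] :
    X ≤ Subgroup.normalizer (Sy F s : Set G) := by
  intro x hx
  rw [← conj_eq_iff_mem_normalizer, ← sy_conj hF, conj_eq_iff_mem_normalizer.mpr (h hx)]

theorem le_normalizer_of_sy [Finite G] {A X : Subgroup G} (hA : Group.IsNilpotent A)
    (h : ∀ s : ℕ, ∀ _ : Fact s.Prime, X ≤ Subgroup.normalizer (Sy A s : Set G)) :
    X ≤ Subgroup.normalizer (A : Set G) := by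
  intro x hx
  rw [← conj_eq_iff_mem_normalizer]
  symm
  apply eq_of_le_of_card_ge' _ (card_conj x A).le
  apply le_of_sy hA
  intro s hs
  rw [← conj_eq_iff_mem_normalizer.mpr (h s hs hx)]
  exact conj_le_conj.mpr (sy_le A s)

theorem card_coprime_of_isPGroup [Finite G] {P : Subgroup G} {p q : ℕ} [hp : Fact p.Prime]
    [hq : Fact q.Prime] (hP : IsPGroup p P) (h : q ≠ p) : (Nat.card P).Coprime q := by
  obtain ⟨n, hn⟩ := IsPGroup.iff_card.mp hP
  rw [hn]
  exact Nat.Coprime.pow_left _ ((Nat.coprime_primes hp.out hq.out).mpr (Ne.symm h))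

theorem sy_conj_comm [Finite G] {B : Subgroup G} (hB : Group.IsNilpotent B) {q r : ℕ}
    [Fact q.Prime] [Fact r.Prime] (hqr : r ≠ q) (x : G) {X : Subgroup G}
    (hX : X ≤ MulAut.conj x • Sy B q) :
    MulAut.conj x • Sy B r ≤ Subgroup.centralizer (X : Set G) := by
  rw [← sy_conj hB] at hX ⊢
  exact (sy_le_centralizer (nilpotent_conj hB x) (sy_le _ q)
    (card_coprime_of_isPGroup (sy_isPGroup _ q) hqr)).trans (Subgroup.centralizer_le hX)

theorem sy_comm [Finite G] {B : Subgroup G} (hB : Group.IsNilpotent B) {q r : ℕ}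
    [Fact q.Prime] [Fact r.Prime] (hqr : r ≠ q) {X : Subgroup G}
    (hX : X ≤ Sy B q) : Sy B r ≤ Subgroup.centralizer (X : Set G) := by
  have h1 := sy_conj_comm hB hqr (1 : G) (X := X) (by rw [conj_one]; exact hX)
  rwa [conj_one] at h1

/-- factorized subgroup -/
def Fac (A B X : Subgroup G) : Prop := ∀ x ∈ X, ∃ a ∈ A ⊓ X, ∃ b ∈ B ⊓ X, x = a * b

theorem Fac.symm {A B X : Subgroup G} (h : Fac A B X) : Fac B A X := by
  intro x hx
  obtain ⟨b, hb, a, ha, hab⟩ := h x⁻¹ (X.inv_mem hx)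
  refine ⟨a⁻¹, (B ⊓ X).inv_mem ha, b⁻¹, (A ⊓ X).inv_mem hb, ?_⟩
  rw [← mul_inv_rev, ← hab, inv_inv]

theorem fac_of_le {A B X : Subgroup G} (hfac : ∀ g : G, ∃ a ∈ A, ∃ b ∈ B, g = a * b)
    (hA : A ≤ X) : Fac A B X := by
  intro x hx
  obtain ⟨a, ha, b, hb, rfl⟩ := hfac x
  have h1 : b ∈ X := by
    have := X.mul_mem (X.inv_mem (hA ha)) hx
    rwa [inv_mul_cancel_left] at this
  exact ⟨a, ⟨ha, hA ha⟩, b, ⟨hb, h1⟩, rfl⟩

theorem fac_centralizer {A B : Subgroup G} (hfac : ∀ g : G, ∃ a ∈ A, ∃ b ∈ B, g = a * b)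
    (hi : A ⊓ B = ⊥) {x : G} (hx : x ∈ B ⊓ Subgroup.normalizer (A : Set G)) :
    Fac A B (Subgroup.centralizer {x}) := by
  intro g hg
  obtain ⟨a, ha, b, hb, rfl⟩ := hfac g
  rw [Subgroup.mem_centralizer_singleton_iff] at hg
  have hxB : x ∈ B := hx.1
  have hxN : x ∈ Subgroup.normalizer (A : Set G) := hx.2
  have h1 : b * x * b⁻¹ * x⁻¹ = a⁻¹ * (x * a * x⁻¹) := by
    have : a * b * x = x * (a * b) := hg
    calc b * x * b⁻¹ * x⁻¹ = a⁻¹ * (a * b * x) * b⁻¹ * x⁻¹ := by group
      _ = a⁻¹ * (x * (a * b)) * b⁻¹ * x⁻¹ := by rw [this]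
      _ = _ := by group
  have h2 : b * x * b⁻¹ * x⁻¹ ∈ A ⊓ B := by
    refine ⟨?_, B.mul_mem (B.mul_mem (B.mul_mem hb hxB) (B.inv_mem hb)) (B.inv_mem hxB)⟩
    rw [h1]
    exact A.mul_mem (A.inv_mem ha) ((Subgroup.mem_normalizer_iff.mp hxN a).mp ha)
  rw [hi, Subgroup.mem_bot] at h2
  have h3 : b * x = x * b := by
    have := h2
    rw [mul_inv_eq_one, mul_inv_eq_iff_eq_mul] at this
    exact this
  have h4 : a * x = x * a := by
    rw [h1] at h2
    have h5 : x * a * x⁻¹ = a := by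
      rw [inv_mul_eq_one] at h2
      exact h2.symm
    rw [mul_inv_eq_iff_eq_mul] at h5
    exact h5.symm
  exact ⟨a, ⟨ha, Subgroup.mem_centralizer_singleton_iff.mpr h4⟩, b,
    ⟨hb, Subgroup.mem_centralizer_singleton_iff.mpr h3⟩, rfl⟩

theorem Fac.le_of_coprime [Finite G] {A B X K : Subgroup G} (hf : Fac A B X) (hK : K ≤ X)
    (hn : X ≤ Subgroup.normalizer (K : Set G)) (hc : (Nat.card K).Coprime (Nat.card A)) :
    K ≤ B := by
  refine (le_of_coprime_relIndex (Y := B ⊓ X) hK inf_le_right hn ?_).trans inf_le_left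
  rw [Subgroup.inf_relIndex_right]
  have h1 : B.relIndex X = B.relIndex (A ⊓ X) := by
    apply relIndex_eq_of_factor inf_le_right
    intro l hl
    obtain ⟨a, ha, b, hb, rfl⟩ := hf l hl
    exact ⟨a, ha, by rw [inv_mul_cancel_left]; exact hb.1⟩
  rw [h1]
  exact Nat.Coprime.coprime_dvd_right ((Subgroup.relIndex_dvd_card _ _).trans
    (Subgroup.card_dvd_of_le inf_le_left)) hc

/-- Fitting subgroup of a subgroup, in the group -/
def Fit (X : Subgroup G) : Subgroup G := (Cfsg.fittingSubgroup X).map X.subtype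

theorem fit_le (X : Subgroup G) : Fit X ≤ X := Subgroup.map_subtype_le _

theorem fit_nilpotent [Finite G] (X : Subgroup G) : Group.IsNilpotent (Fit X) := by
  have h1 : Group.IsNilpotent (Cfsg.fittingSubgroup X) := fitting_nilpotent
  exact (Group.isNilpotent_congr
    ((Cfsg.fittingSubgroup X).equivMapOfInjective X.subtype X.subtype_injective)).mp h1

theorem fit_normalizer (X : Subgroup G) : X ≤ Subgroup.normalizer (Fit X : Set G) := by
  rw [← Subgroup.normal_subgroupOf_iff_le_normalizer (fit_le X), Fit, Subgroup.subgroupOf,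
    Subgroup.comap_map_eq_self_of_injective X.subtype_injective]
  exact fitting_normal

theorem fit_centralizer [Finite G] {X : Subgroup G} (hX : Group.IsSolvable X) :
    X ⊓ Subgroup.centralizer (Fit X : Set G) ≤ Fit X := by
  rintro x ⟨hx1, hx2⟩
  have hx2' : x ∈ Subgroup.centralizer (Fit X : Set G) := hx2
  rw [Subgroup.mem_centralizer_iff] at hx2'
  have h1 : (⟨x, hx1⟩ : X) ∈ Subgroup.centralizer (Cfsg.fittingSubgroup X : Set X) := by
    rw [Subgroup.mem_centralizer_iff]
    intro y hy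
    exact Subtype.ext (hx2' y ⟨y, hy, rfl⟩)
  exact ⟨_, centralizer_fitting_le h1, rfl⟩

end Gen

section Ctx

variable {G : Type*} [Group G]

theorem Ctx.centralizer_ne_top {A B : Subgroup G} (h : Ctx A B) {y : G} (hy : y ≠ 1) :
    Subgroup.centralizer ({y} : Set G) ≠ ⊤ := by
  intro ht
  have h1 : y ∈ Subgroup.center G := by
    rw [Subgroup.mem_center_iff]; intro g
    have : g ∈ Subgroup.centralizer ({y} : Set G) := by rw [ht]; trivial
    rw [Subgroup.mem_centralizer_singleton_iff] at this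
    exact this
  rcases h.simple (Subgroup.center G) inferInstance with h2 | h2
  · rw [h2, Subgroup.mem_bot] at h1; exact hy h1
  · apply h.nns
    have h3 : IsMulCommutative G := center_eq_top_iff.mp h2
    open scoped IsMulCommutative in
    infer_instance

theorem le_centralizer_singleton {X Y : Subgroup G} (h : X ≤ Subgroup.centralizer (Y : Set G))
    {y : G} (hy : y ∈ Y) : X ≤ Subgroup.centralizer {y} :=
  h.trans (Subgroup.centralizer_le (Set.singleton_subset_iff.mpr hy))

theorem exists_mem_conj_sy [Finite G] {B : Subgroup G} (hB : Group.IsNilpotent B) {q : ℕ}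
    [hq : Fact q.Prime] (hd : ¬ q ∣ B.index) {y : G} (hy : orderOf y = q) :
    ∃ x : G, y ∈ MulAut.conj x • Sy B q := by
  obtain ⟨x, hx⟩ := exists_conj_le_sy hB hd (X := Subgroup.zpowers y) (by
    apply IsPGroup.of_card (n := 1)
    rw [Nat.card_zpowers, hy, pow_one])
  exact ⟨x, hx (Subgroup.mem_zpowers y)⟩

/-- (F6) -/
theorem Ctx.normalizer_sy [Finite G] {A B : Subgroup G} (h : Ctx A B) {p : ℕ}
    [hp : Fact p.Prime] (hd : p ∣ Nat.card A) :
    Subgroup.normalizer (Sy A p : Set G) = Subgroup.normalizer (A : Set G) := by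
  apply le_antisymm _ (sy_normalizer_of h.nA le_rfl p)
  set P := Sy A p with hP
  set M := Subgroup.normalizer (P : Set G) with hM
  set C := Subgroup.centralizer (P : Set G) with hC
  have hAM : A ≤ M := sy_normalizer A p
  have hCM : C ≤ M := Subgroup.centralizer_le_normalizer _
  have hMC : M ≤ Subgroup.normalizer (C : Set G) := by
    intro x hx
    rw [← conj_eq_iff_mem_normalizer] at hx ⊢
    symm
    apply eq_of_le_of_card_ge' _ (card_conj x C).le
    intro c hc
    rw [mem_conj, Subgroup.mem_centralizer_iff]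
    intro y hy
    have hy' : x * y * x⁻¹ ∈ P := by
      have h1 : x * y * x⁻¹ ∈ MulAut.conj x • P := conj_mem_conj.mpr hy
      rwa [hx] at h1
    have h2 := (Subgroup.mem_centralizer_iff.mp hc) _ hy'
    calc y * (x⁻¹ * c * x) = x⁻¹ * (x * y * x⁻¹ * c) * x := by group
      _ = x⁻¹ * (c * (x * y * x⁻¹)) * x := by rw [h2]
      _ = _ := by group
  have hCcop : (Nat.card C).Coprime (Nat.card B) := by
    apply Nat.Coprime.symm
    apply Nat.coprime_of_dvd
    intro q hq hqB hqC
    have hqf : Fact q.Prime := ⟨hq⟩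
    obtain ⟨y, hy⟩ := exists_prime_orderOf_dvd_card' (G := C) q hqC
    rw [← Subgroup.orderOf_coe] at hy
    obtain ⟨x, hx⟩ := exists_mem_conj_sy h.nB (h.symm.not_dvd_index hq hqB) hy
    obtain ⟨r, hr, hrq, hrB⟩ := h.symm.two_primes q hq
    have hrf : Fact r.Prime := ⟨hr⟩
    have h1 : MulAut.conj x • Sy B r ≤ Subgroup.centralizer {(y : G)} :=
      le_centralizer_singleton (sy_conj_comm h.nB hrq x le_rfl) hx
    have h2 : P ≤ Subgroup.centralizer {(y : G)} := by
      intro z hz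
      rw [Subgroup.mem_centralizer_singleton_iff]
      exact (Subgroup.mem_centralizer_iff.mp y.2) z hz
    have h3 := h.sup_eq_top hd hrB 1 x
    rw [conj_one] at h3
    have hy1 : (y : G) ≠ 1 := by
      intro h0
      rw [h0, orderOf_one] at hy
      exact hq.one_lt.ne hy
    exact h.centralizer_ne_top hy1 (top_le_iff.mp (h3 ▸ sup_le h2 h1))
  have hCA : C ≤ A := (fac_of_le h.fac hAM).symm.le_of_coprime hCM hMC hCcop
  have hCn : Group.IsNilpotent C := isNilpotent_of_le hCA h.nA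
  apply le_normalizer_of_sy h.nA
  intro s hs
  by_cases hsp : s = p
  · subst hsp; exact le_rfl
  · have h1 : Sy A s ≤ C := sy_comm h.nA hsp le_rfl
    have h2 : Sy A s = Sy C s := le_antisymm (le_sy hCn h1 (sy_isPGroup A s))
      (le_sy h.nA ((sy_le C s).trans hCA) (sy_isPGroup C s))
    rw [h2]
    exact sy_normalizer_of hCn hMC s

/-- conjugates of Sylow subgroups of `A` have proper normalizers etc. -/
theorem Ctx.normalizer_ne_top' [Finite G] {A B : Subgroup G} (h : Ctx A B) {R : Subgroup G} {r : ℕ}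
    [hr : Fact r.Prime] (hR : IsPGroup r R) (hb : R ≠ ⊥) :
    Subgroup.normalizer (R : Set G) ≠ ⊤ := by
  apply h.normalizer_ne_top hb
  rintro rfl
  apply h.nns
  have h1 : Group.IsNilpotent (⊤ : Subgroup G) := hR.isNilpotent
  exact solvable_top inferInstance

/-- part of (L1) -/
theorem Ctx.fit_sy [Finite G] {A B : Subgroup G} (h : Ctx A B) {X : Subgroup G} (hX : X ≠ ⊤)
    (hf : Fac A B X) (r : ℕ) [hrf : Fact r.Prime]
    (hr : ∀ s : ℕ, ∀ _ : Fact s.Prime, s ≠ r → Sy B s ≤ X) :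
    Fit X ≤ B ∧ ∀ s : ℕ, ∀ _ : Fact s.Prime, s ∣ Nat.card B → s ≠ r → Sy (Fit X) s ≠ ⊥ := by
  have hXs : Group.IsSolvable X := h.ih X hX hf
  have hFn : Group.IsNilpotent (Fit X) := fit_nilpotent X
  have hcop : (Nat.card (Fit X)).Coprime (Nat.card A) := by
    apply Nat.Coprime.symm
    apply Nat.coprime_of_dvd
    intro p hp hpA hpF
    have hpf : Fact p.Prime := ⟨hp⟩
    set R := Sy (Fit X) p with hR
    have hRp : IsPGroup p R := sy_isPGroup _ p
    have hRb : R ≠ ⊥ := sy_ne_bot hFn hpF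
    have hXN : X ≤ Subgroup.normalizer (R : Set G) := sy_normalizer_of hFn (fit_normalizer X) p
    obtain ⟨g, hg⟩ := exists_conj_le_sy h.nA (h.not_dvd_index hp hpA) hRp
    obtain ⟨s, hs, hsp, hsA⟩ := h.two_primes p hp
    have hsf : Fact s.Prime := ⟨hs⟩
    obtain ⟨t, ht, htr, htB⟩ := h.symm.two_primes r hrf.out
    have htf : Fact t.Prime := ⟨ht⟩
    have h1 : MulAut.conj g • Sy A s ≤ Subgroup.normalizer (R : Set G) :=
      (sy_conj_comm h.nA hsp g hg).trans (Subgroup.centralizer_le_normalizer _)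
    have h2 : Sy B t ≤ Subgroup.normalizer (R : Set G) := (hr t htf htr).trans hXN
    have h3 := h.sup_eq_top hsA htB g 1
    rw [conj_one] at h3
    exact h.normalizer_ne_top' hRp hRb (top_le_iff.mp (h3 ▸ sup_le h1 h2))
  have hFB : Fit X ≤ B := hf.le_of_coprime (fit_le X) (fit_normalizer X) hcop
  refine ⟨hFB, ?_⟩
  intro s hs hsB hsr hbot
  have h1 : (Nat.card (Fit X)).Coprime s := by
    rw [Nat.coprime_comm, hs.out.coprime_iff_not_dvd]
    intro hd
    exact sy_ne_bot hFn hd hbot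
  have h2 : Sy B s ≤ Subgroup.centralizer (Fit X : Set G) := sy_le_centralizer h.nB hFB h1
  have h3 : Sy B s ≤ Fit X := (le_inf (hr s hs hsr) h2).trans (fit_centralizer hXs)
  have h4 : Sy B s ≤ Sy (Fit X) s := le_sy hFn h3 (sy_isPGroup B s)
  rw [hbot, le_bot_iff] at h4
  exact sy_ne_bot h.nB hsB h4

/-- (L1) -/
theorem Ctx.L1 [Finite G] {A B : Subgroup G} (h : Ctx A B) {X : Subgroup G} (hX : X ≠ ⊤)
    (hf : Fac A B X) (r : ℕ) [hrf : Fact r.Prime]
    (hr : ∀ s : ℕ, ∀ _ : Fact s.Prime, s ≠ r → Sy B s ≤ X) :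
    ∃ M : Subgroup G, M ≠ ⊤ ∧ B ≤ M ∧ X ≤ M := by
  obtain ⟨hFB, hF⟩ := h.fit_sy hX hf r hr
  obtain ⟨s, hs, hsr, hsB⟩ := h.symm.two_primes r hrf.out
  have hsf : Fact s.Prime := ⟨hs⟩
  have hFn : Group.IsNilpotent (Fit X) := fit_nilpotent X
  set R := Sy (Fit X) s with hR
  have hRs : IsPGroup s R := sy_isPGroup _ s
  have hRB : R ≤ Sy B s := le_sy h.nB ((sy_le _ s).trans hFB) hRs
  have hXN : X ≤ Subgroup.normalizer (R : Set G) := sy_normalizer_of hFn (fit_normalizer X) s
  refine ⟨Subgroup.normalizer (R : Set G), h.normalizer_ne_top' hRs (hF s hsf hsB hsr), ?_, hXN⟩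
  apply le_of_sy h.nB
  intro t ht
  by_cases hts : t = s
  · subst hts
    exact (hr t ht hsr).trans hXN
  · exact (sy_comm h.nB hts hRB).trans (Subgroup.centralizer_le_normalizer _)

/-- (L2) -/
theorem Ctx.L2 [Finite G] {A B : Subgroup G} (h : Ctx A B) {M : Subgroup G} (hM : M ≠ ⊤)
    (hB : B ≤ M) : M ≤ Subgroup.normalizer (B : Set G) := by
  have hf : Fac A B M := (fac_of_le h.symm.fac hB).symm
  have hMs : Group.IsSolvable M := h.ih M hM hf
  have hFn : Group.IsNilpotent (Fit M) := fit_nilpotent M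
  have hFt : ∀ t : ℕ, ∀ _ : Fact t.Prime, t ∣ Nat.card B →
      Sy (Fit M) t ≠ ⊥ ∧ Fit M ≤ B := by
    intro t ht htB
    obtain ⟨r, hr, hrt, -⟩ := h.symm.two_primes t ht.out
    have hrf : Fact r.Prime := ⟨hr⟩
    have h1 := h.fit_sy hM hf r (fun s hs _ => (sy_le B s).trans hB)
    exact ⟨h1.2 t ht htB hrt.symm, h1.1⟩
  -- the main claim
  have hCA : ∀ t : ℕ, ∀ _ : Fact t.Prime, t ∣ Nat.card B →
      (Subgroup.centralizer (Sy (Fit M) t : Set G) ⊓ M) ⊓ A = ⊥ := by
    intro t ht htB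
    by_contra hne
    obtain ⟨hFtb, hFB⟩ := hFt t ht htB
    set Ft := Sy (Fit M) t with hFtdef
    set C := Subgroup.centralizer (Ft : Set G) ⊓ M with hC
    have hMFt : M ≤ Subgroup.normalizer (Ft : Set G) := sy_normalizer_of hFn (fit_normalizer M) t
    have hMC : M ≤ Subgroup.normalizer (C : Set G) := by
      intro x hx
      have hx' := hMFt hx
      rw [← conj_eq_iff_mem_normalizer] at hx' ⊢
      symm
      apply eq_of_le_of_card_ge' _ (card_conj x C).le
      rintro c ⟨hc1, hc2⟩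
      have hc1' : c ∈ Subgroup.centralizer (Ft : Set G) := hc1
      have hc2' : c ∈ M := hc2
      rw [mem_conj]
      refine ⟨?_, M.mul_mem (M.mul_mem (M.inv_mem hx) hc2') hx⟩
      have goal : x⁻¹ * c * x ∈ Subgroup.centralizer (Ft : Set G) := by
        rw [Subgroup.mem_centralizer_iff]
        intro y hy
        have hy' : x * y * x⁻¹ ∈ Ft := by
          have h1 : x * y * x⁻¹ ∈ MulAut.conj x • Ft := conj_mem_conj.mpr hy
          rwa [hx'] at h1
        have h2 := (Subgroup.mem_centralizer_iff.mp hc1') _ hy'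
        calc y * (x⁻¹ * c * x) = x⁻¹ * (x * y * x⁻¹ * c) * x := by group
          _ = x⁻¹ * (c * (x * y * x⁻¹)) * x := by rw [h2]
          _ = _ := by group
      exact goal
    have hCAn : Group.IsNilpotent (C ⊓ A : Subgroup G) := isNilpotent_of_le inf_le_right h.nA
    obtain ⟨p, hp, hpd⟩ := Nat.exists_prime_and_dvd
      (fun h1 : Nat.card (C ⊓ A : Subgroup G) = 1 => hne (Subgroup.card_eq_one.mp h1))
    have hpf : Fact p.Prime := ⟨hp⟩
    have hpA : p ∣ Nat.card A := hpd.trans (Subgroup.card_dvd_of_le inf_le_right)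
    set V := Sy (C ⊓ A) p with hV
    have hVp : IsPGroup p V := sy_isPGroup _ p
    have hVb : V ≠ ⊥ := sy_ne_bot hCAn hpd
    have hVC : V ≤ C := (sy_le _ p).trans inf_le_left
    have hVA : V ≤ Sy A p := le_sy h.nA ((sy_le _ p).trans inf_le_right) hVp
    have hVmax : ∀ W : Subgroup G, IsPGroup p W → W ≤ C → W ≤ A → W ≤ V :=
      fun W hW h1 h2 => le_sy hCAn (le_inf h1 h2) hW
    -- the normalizer of V is factorized
    have hNf : Fac B A (Subgroup.normalizer (V : Set G)) := by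
      intro g hg
      obtain ⟨b, hb, a, ha, rfl⟩ := h.symm.fac g
      rw [← conj_eq_iff_mem_normalizer, ← conj_conj] at hg
      have e1 : MulAut.conj a • V = MulAut.conj b⁻¹ • V := by
        conv_rhs => rw [← hg]
        rw [conj_conj, inv_mul_cancel, conj_one]
      have e2 : MulAut.conj a • V ≤ V := by
        apply hVmax _ (isPGroup_conj hVp a)
        · rw [e1]
          have := (conj_le_conj (g := b⁻¹)).mpr hVC
          rwa [conj_eq_iff_mem_normalizer.mpr (hMC (hB (B.inv_mem hb)))] at this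
        · exact conj_le_of_mem (hVA.trans (sy_le A p)) ha
      have e3 : MulAut.conj a • V = V := eq_of_le_of_card_ge' e2 (card_conj a V).ge
      have han : a ∈ Subgroup.normalizer (V : Set G) := conj_eq_iff_mem_normalizer.mp e3
      have hbn : b ∈ Subgroup.normalizer (V : Set G) := by
        rw [e3] at hg
        exact conj_eq_iff_mem_normalizer.mp hg
      exact ⟨b, ⟨hb, hbn⟩, a, ⟨ha, han⟩, rfl⟩
    obtain ⟨MA, hMAt, hAMA, hNMA⟩ := h.symm.L1 (h.normalizer_ne_top' hVp hVb) hNf p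
      (fun s hs hsp => (sy_comm h.nA hsp hVA).trans (Subgroup.centralizer_le_normalizer _))
    have hFtMA : Ft ≤ MA := by
      refine le_trans ?_ hNMA
      refine le_trans ?_ (Subgroup.centralizer_le_normalizer _)
      rw [Subgroup.le_centralizer_iff]
      exact hVC.trans inf_le_left
    -- `Ft` is contained in all conjugates of `MA`
    have hall : ∀ g : G, MulAut.conj g • Ft ≤ MA := by
      intro g
      obtain ⟨a, ha, b, hb, rfl⟩ := h.fac g
      rw [← conj_conj, conj_eq_iff_mem_normalizer.mpr (hMFt (hB hb))]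
      exact conj_le_of_mem hFtMA (hAMA ha)
    have hcl := normalClosure_le_of_conj_le hall
    rcases h.simple (Subgroup.normalClosure (Ft : Set G)) Subgroup.normalClosure_normal with h1 | h1
    · apply hFtb
      rw [eq_bot_iff, ← h1]
      exact Subgroup.subset_normalClosure
    · rw [h1] at hcl
      exact hMAt (top_le_iff.mp hcl)
  -- hence the centralizers are in `B`
  have hCB : ∀ t : ℕ, ∀ _ : Fact t.Prime, t ∣ Nat.card B →
      Subgroup.centralizer (Sy (Fit M) t : Set G) ⊓ M ≤ B ∧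
      M ≤ Subgroup.normalizer
        ((Subgroup.centralizer (Sy (Fit M) t : Set G) ⊓ M : Subgroup G) : Set G) := by
    intro t ht htB
    have hca := hCA t ht htB
    set Ft := Sy (Fit M) t with hFtdef
    set C := Subgroup.centralizer (Ft : Set G) ⊓ M with hC
    have hMFt : M ≤ Subgroup.normalizer (Ft : Set G) := sy_normalizer_of hFn (fit_normalizer M) t
    have hMC : M ≤ Subgroup.normalizer (C : Set G) := by
      intro x hx
      have hx' := hMFt hx
      rw [← conj_eq_iff_mem_normalizer] at hx' ⊢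
      symm
      apply eq_of_le_of_card_ge' _ (card_conj x C).le
      rintro c ⟨hc1, hc2⟩
      have hc1' : c ∈ Subgroup.centralizer (Ft : Set G) := hc1
      have hc2' : c ∈ M := hc2
      rw [mem_conj]
      refine ⟨?_, M.mul_mem (M.mul_mem (M.inv_mem hx) hc2') hx⟩
      have goal : x⁻¹ * c * x ∈ Subgroup.centralizer (Ft : Set G) := by
        rw [Subgroup.mem_centralizer_iff]
        intro y hy
        have hy' : x * y * x⁻¹ ∈ Ft := by
          have h1 : x * y * x⁻¹ ∈ MulAut.conj x • Ft := conj_mem_conj.mpr hy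
          rwa [hx'] at h1
        have h2 := (Subgroup.mem_centralizer_iff.mp hc1') _ hy'
        calc y * (x⁻¹ * c * x) = x⁻¹ * (x * y * x⁻¹ * c) * x := by group
          _ = x⁻¹ * (c * (x * y * x⁻¹)) * x := by rw [h2]
          _ = _ := by group
      exact goal
    refine ⟨?_, hMC⟩
    apply hf.le_of_coprime inf_le_right hMC
    apply Nat.Coprime.symm
    apply Nat.coprime_of_dvd
    intro p hp hpA hpC
    have hpf : Fact p.Prime := ⟨hp⟩
    -- `A ⊓ M` contains a Sylow `p`-subgroup of `C`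
    have h1 : A.relIndex C ∣ Nat.card B := by
      have h2 : A.relIndex M = A.relIndex (B ⊓ M) := by
        apply relIndex_eq_of_factor inf_le_right
        intro l hl
        obtain ⟨b, hb, a, ha, rfl⟩ := hf.symm l hl
        exact ⟨b, hb, by rw [inv_mul_cancel_left]; exact ha.1⟩
      have h3 : A.relIndex M ∣ Nat.card B := by
        rw [h2]
        exact (Subgroup.relIndex_dvd_card _ _).trans (Subgroup.card_dvd_of_le inf_le_left)
      refine dvd_trans ?_ h3
      rw [← Subgroup.inf_relIndex_right A M]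
      have h4 : (A ⊓ M).relIndex (C ⊔ (A ⊓ M)) = (A ⊓ M).relIndex C := by
        apply relIndex_eq_of_factor le_sup_left
        intro l hl
        rw [← SetLike.mem_coe, Subgroup.coe_mul_of_right_le_normalizer_left C (A ⊓ M)
          (inf_le_right.trans hMC)] at hl
        obtain ⟨x, hx, k, hk, rfl⟩ := Set.mem_mul.mp hl
        exact ⟨x, hx, by simpa using hk⟩
      have h5 : (A ⊓ M).relIndex C = A.relIndex C := by
        rw [← Subgroup.inf_relIndex_right (A ⊓ M) C, ← Subgroup.inf_relIndex_right A C, inf_assoc,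
          inf_eq_right.mpr (inf_le_right : C ≤ M)]
      rw [← h5, ← h4, ← Subgroup.relIndex_mul_relIndex (A ⊓ M) (C ⊔ (A ⊓ M)) M le_sup_right
        (sup_le inf_le_right inf_le_right)]
      exact Dvd.intro _ rfl
    have h6 : A.relIndex C = Nat.card C := by
      rw [← Subgroup.inf_relIndex_right, inf_comm, hca, Subgroup.relIndex_bot_left]
    rw [h6] at h1
    exact hp.one_lt.ne' (Nat.eq_one_of_dvd_coprimes h.cop hpA (hpC.trans h1))
  apply le_normalizer_of_sy h.nB
  intro s hs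
  obtain ⟨t, ht, hts, htB⟩ := h.symm.two_primes s hs.out
  have htf : Fact t.Prime := ⟨ht⟩
  obtain ⟨h1, h2⟩ := hCB t htf htB
  set C := Subgroup.centralizer (Sy (Fit M) t : Set G) ⊓ M with hC
  have hCn : Group.IsNilpotent C := isNilpotent_of_le h1 h.nB
  have h3 : Sy B s ≤ C := by
    refine le_inf (sy_comm h.nB hts.symm ?_) ((sy_le B s).trans hB)
    exact le_sy h.nB ((sy_le _ t).trans (hFt t htf htB).2) (sy_isPGroup _ t)
  have h4 : Sy B s = Sy C s := le_antisymm (le_sy hCn h3 (sy_isPGroup B s))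
    (le_sy h.nB ((sy_le C s).trans h1) (sy_isPGroup C s))
  rw [h4]
  exact sy_normalizer_of hCn h2 s

/-- (L) -/
theorem Ctx.L [Finite G] {A B : Subgroup G} (h : Ctx A B) {X : Subgroup G} (hX : X ≠ ⊤)
    (hf : Fac A B X) (r : ℕ) [hrf : Fact r.Prime]
    (hr : ∀ s : ℕ, ∀ _ : Fact s.Prime, s ≠ r → Sy B s ≤ X) :
    X ≤ Subgroup.normalizer (B : Set G) := by
  obtain ⟨M, hM, hBM, hXM⟩ := h.L1 hX hf r hr
  exact hXM.trans (h.L2 hM hBM)

end Ctx

end Cfsg.Agent.H1.KW
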