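import Mathlib
import Cfsg.Agent.H1_KW2

set_option autoImplicit false

open Pointwise
open scoped commutatorElement
open Cfsg.Agent.H1.Basic Cfsg.Agent.H1.Nilp Cfsg.Agent.H1.Hall Cfsg.Agent.H1.Factor
open Cfsg.Agent.H1.Wiel Cfsg.Agent.H1.SZ Cfsg.Agent.H1.Schmidt Cfsg.Agent.H1.Kegel

namespace Cfsg.Agent.H1.KW

section Gen

variable {G : Type*} [Group G]

/-- relative version of Wielandt's theorem on nilpotent subgroups -/
theorem wielandt_in [Finite G] {K H : Subgroup G} (hKH : K ≤ H) (hK : Group.IsNilpotent K)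
    (h2 : ∀ p : ℕ, p.Prime → p ∣ Nat.card K → ∃ q : ℕ, q.Prime ∧ q ≠ p ∧ q ∣ Nat.card K)
    (hnorm : ∀ p : ℕ, ∀ _ : Fact p.Prime, p ∣ Nat.card K →
      H ⊓ Subgroup.normalizer (Sy K p : Set G) = K) :
    ∃ N : Subgroup G, N ≤ H ∧ H ≤ Subgroup.normalizer (N : Set G) ∧
      (Nat.card N).Coprime (Nat.card K) ∧ (N = ⊥ → H = K) := by
  have hcK : Nat.card (K.subgroupOf H) = Nat.card K := card_subgroupOf hKH
  have key : ∀ p : ℕ, ∀ _ : Fact p.Prime, p ∣ Nat.card K → ∀ P : Sylow p (K.subgroupOf H),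
      (P : Subgroup (K.subgroupOf H)).map (K.subgroupOf H).subtype = (Sy K p).subgroupOf H := by
    intro p hp hpd P
    apply eq_of_le_of_card_ge'
    · intro x hx
      obtain ⟨y, hy, rfl⟩ := hx
      rw [Subgroup.mem_subgroupOf]
      have h1 : ((P : Subgroup (K.subgroupOf H)).map (K.subgroupOf H).subtype).map H.subtype ≤
          Sy K p := by
        apply le_sy hK
        · rintro _ ⟨_, ⟨z, _, rfl⟩, rfl⟩
          exact Subgroup.mem_subgroupOf.mp z.2
        · exact (P.2.map _).map _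
      exact h1 ⟨_, ⟨y, hy, rfl⟩, rfl⟩
    · rw [card_subgroupOf ((sy_le K p).trans hKH)]
      have h1 : Nat.card ((P : Subgroup (K.subgroupOf H)).map (K.subgroupOf H).subtype) =
          p ^ (Nat.card (K.subgroupOf H)).factorization p := Coprime.card_map_sylow P
      rw [h1, hcK]
      obtain ⟨n, hn⟩ := IsPGroup.iff_card.mp (sy_isPGroup K p)
      rw [hn]
      apply Nat.pow_le_pow_right hp.out.pos
      rw [← hp.out.pow_dvd_iff_le_factorization Nat.card_pos.ne', ← hn]
      exact Subgroup.card_dvd_of_le (sy_le K p)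
  obtain ⟨N, hN, hc⟩ := wielandt_complement (K.subgroupOf H) (by rw [hcK]; exact h2) (by
    intro p hp hpd P
    have hpf : Fact p.Prime := ⟨hp⟩
    rw [hcK] at hpd
    rw [key p hpf hpd P, ← Subgroup.subgroupOf_normalizer_eq ((sy_le K p).trans hKH)]
    have h3 := hnorm p hpf hpd
    conv_rhs => rw [← h3]
    rw [Subgroup.inf_subgroupOf_left])
  -- `K` is Hall in `H`
  have hHall : (K.relIndex H).Coprime (Nat.card K) := by
    apply Nat.Coprime.symm
    apply Nat.coprime_of_dvd
    intro p hp hpK hpi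
    have hpf : Fact p.Prime := ⟨hp⟩
    have hSK := sy_le K p
    have h1 : p ∣ ((Sy K p).subgroupOf H).index := by
      have h2 := Subgroup.relIndex_mul_relIndex (Sy K p) K H hSK hKH
      rw [← Subgroup.relIndex, ← h2]
      exact hpi.mul_left _
    have h3 : IsPGroup p ((Sy K p).subgroupOf H) := (sy_isPGroup K p).comap_subtype
    obtain ⟨R, hR⟩ := h3.exists_le_sylow
    have hRmap : Sy K p ≤ (R : Subgroup H).map H.subtype := by
      intro x hx
      exact ⟨⟨x, hKH (hSK hx)⟩, hR (Subgroup.mem_subgroupOf.mpr hx), rfl⟩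
    have hRp : IsPGroup p ((R : Subgroup H).map H.subtype) := R.2.map _
    have hRH : (R : Subgroup H).map H.subtype ≤ H := Subgroup.map_subtype_le _
    by_cases heq : Sy K p = (R : Subgroup H).map H.subtype
    · apply R.not_dvd_index
      have : (Sy K p).subgroupOf H = R := by
        rw [heq, Subgroup.subgroupOf, Subgroup.comap_map_eq_self_of_injective H.subtype_injective]
      rw [← this]
      exact h1
    · have hlt : Sy K p < (R : Subgroup H).map H.subtype := lt_of_le_of_ne hRmap heq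
      have h4 := lt_inf_normalizer hlt hRp.isNilpotent
      have h5 : (R : Subgroup H).map H.subtype ⊓ Subgroup.normalizer (Sy K p : Set G) ≤ Sy K p := by
        apply le_sy hK
        · refine (inf_le_inf_right _ hRH).trans ?_
          rw [hnorm p hpf hpK]
        · exact hRp.to_le inf_le_left
      exact absurd h4 (not_lt_of_ge h5)
  have hcN : Nat.card N = K.relIndex H := by
    have h3 := hc.card_mul_card
    have h4 := (K.subgroupOf H).index_mul_card
    rw [← h4] at h3
    exact Nat.eq_of_mul_eq_mul_right Nat.card_pos h3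
  refine ⟨N.map H.subtype, Subgroup.map_subtype_le _, ?_, ?_, ?_⟩
  · rw [← Subgroup.normal_subgroupOf_iff_le_normalizer (Subgroup.map_subtype_le _),
      Subgroup.subgroupOf, Subgroup.comap_map_eq_self_of_injective H.subtype_injective]
    exact hN
  · rw [Subgroup.card_map_of_injective H.subtype_injective, hcN]
    exact hHall
  · intro hb
    have h3 : N = ⊥ := (Subgroup.map_eq_bot_iff_of_injective N H.subtype_injective).mp hb
    rw [h3, Subgroup.card_bot] at hcN
    exact le_antisymm (Subgroup.relIndex_eq_one.mp hcN.symm) hKH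

end Gen

section Ctx

variable {G : Type*} [Group G]

theorem Ctx.le_A_of_le_normalizer [Finite G] {A B : Subgroup G} (h : Ctx A B) {X : Subgroup G}
    (hX : X ≤ Subgroup.normalizer (A : Set G)) (hc : (Nat.card X).Coprime (Nat.card B)) : X ≤ A :=
  le_of_le_normalizer_of_coprime hX (by rw [h.index_A]; exact hc)

theorem Ctx.ti_sy [Finite G] {A B : Subgroup G} (h : Ctx A B) {p : ℕ} [hp : Fact p.Prime]
    (hpA : p ∣ Nat.card A) (g : G) (hg : g ∉ Subgroup.normalizer (A : Set G)) :
    Sy A p ⊓ MulAut.conj g • Sy A p = ⊥ := by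
  by_contra hne
  set NA := Subgroup.normalizer (A : Set G) with hNA
  have hNsy : ∀ s : ℕ, ∀ _ : Fact s.Prime, s ∣ Nat.card A →
      Subgroup.normalizer (Sy A s : Set G) = NA := fun s hs hsA => h.normalizer_sy hsA
  have : Nonempty {g : G // g ∉ NA} := ⟨⟨g, hg⟩⟩
  obtain ⟨⟨g0, hg0⟩, hmax⟩ := Finite.exists_max
    (fun g : {g : G // g ∉ NA} => Nat.card (Sy A p ⊓ MulAut.conj (g : G) • Sy A p : Subgroup G))
  have hmax' : ∀ x : G, x ∉ NA → Nat.card (Sy A p ⊓ MulAut.conj x • Sy A p : Subgroup G) ≤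
      Nat.card (Sy A p ⊓ MulAut.conj g0 • Sy A p : Subgroup G) := fun x hx => hmax ⟨x, hx⟩
  set P := Sy A p with hP
  have hPp : IsPGroup p P := sy_isPGroup A p
  set T := P ⊓ MulAut.conj g0 • P with hT
  have hTb : T ≠ ⊥ := by
    intro hTb
    have h1 := hmax' g hg
    rw [hTb, Subgroup.card_bot] at h1
    have h2 : Nat.card (P ⊓ MulAut.conj g • P : Subgroup G) = 1 :=
      le_antisymm h1 Nat.card_pos
    exact hne (Subgroup.card_eq_one.mp h2)
  have hTP : T < P := by
    refine lt_of_le_of_ne inf_le_left ?_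
    intro heq
    apply hg0
    rw [← hNsy p hp hpA, ← hP, ← conj_eq_iff_mem_normalizer]
    symm
    apply eq_of_le_of_card_ge' _ (card_conj g0 P).le
    exact inf_eq_left.mp heq
  set E := P ⊓ Subgroup.normalizer (T : Set G) with hE
  have hTE : T < E := lt_inf_normalizer hTP hPp.isNilpotent
  -- choose y
  obtain ⟨y, hyT, hy1, hyE⟩ : ∃ y : G, y ∈ T ∧ y ≠ 1 ∧ E ≤ Subgroup.centralizer {y} := by
    have hEn : Group.IsNilpotent E := (hPp.to_le inf_le_left : IsPGroup p E).isNilpotent
    have hTn : (T.subgroupOf E).Normal :=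
      (Subgroup.normal_subgroupOf_iff_le_normalizer hTE.le).mpr inf_le_right
    have hTb' : T.subgroupOf E ≠ ⊥ := by
      rw [Ne, Subgroup.subgroupOf_eq_bot]
      intro hd
      exact hTb (by rw [← inf_eq_left.mpr hTE.le]; exact hd.eq_bot)
    have h1 := normal_inf_center_ne_bot (T.subgroupOf E) hTb'
    obtain ⟨z, hz, hz1⟩ := (Subgroup.bot_or_exists_ne_one _).resolve_left h1
    refine ⟨z, Subgroup.mem_subgroupOf.mp hz.1, fun h0 => hz1 (Subtype.ext h0), ?_⟩
    intro e he
    rw [Subgroup.mem_centralizer_singleton_iff]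
    exact congrArg Subtype.val (Subgroup.mem_center_iff.mp hz.2 ⟨e, he⟩)
  have hyP : y ∈ P := hyT.1
  have hyP' : y ∈ MulAut.conj g0 • P := hyT.2
  have hyA : y ∈ A := sy_le A p hyP
  set H := Subgroup.centralizer ({y} : Set G) with hH
  set D := P ⊓ H with hD
  have hED : E ≤ D := le_inf inf_le_left hyE
  have hTD : Nat.card T < Nat.card D := by
    have h1 : T < D := hTE.trans_le hED
    exact lt_of_le_of_ne (Subgroup.card_le_of_le h1.le)
      (fun heq => h1.ne (eq_of_le_of_card_ge' h1.le heq.ge))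
  have hkey : ∀ x : G, D ≤ MulAut.conj x • P → x ∈ NA := by
    intro x hx
    by_contra hxN
    have h1 := hmax' x hxN
    have h2 : Nat.card D ≤ Nat.card (P ⊓ MulAut.conj x • P : Subgroup G) :=
      Subgroup.card_le_of_le (le_inf inf_le_left hx)
    exact absurd (h2.trans h1) (not_le_of_gt hTD)
  obtain ⟨s, hs, hsp, hsA⟩ := h.two_primes p hp.out
  have hsf : Fact s.Prime := ⟨hs⟩
  have hSH : Sy A s ≤ H := le_centralizer_singleton (sy_comm h.nA hsp le_rfl) hyP
  -- the contradiction lemma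
  have contra : ¬ (H ≤ NA) := by
    intro hle
    have h1 : MulAut.conj g0 • Sy A s ≤ NA :=
      (le_centralizer_singleton (sy_conj_comm h.nA hsp g0 le_rfl) hyP').trans hle
    have h2 : MulAut.conj g0 • Sy A s ≤ A := by
      apply le_of_le_normalizer_of_coprime h1
      obtain ⟨n, hn⟩ := IsPGroup.iff_card.mp (isPGroup_conj (sy_isPGroup A s) g0)
      rw [hn]
      apply Nat.Coprime.pow_left
      rw [hs.coprime_iff_not_dvd]
      exact h.not_dvd_index hs hsA
    have h3 : MulAut.conj g0 • Sy A s ≤ Sy A s := le_sy h.nA h2 (isPGroup_conj (sy_isPGroup A s) g0)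
    have h4 : MulAut.conj g0 • Sy A s = Sy A s := eq_of_le_of_card_ge' h3 (card_conj g0 _).ge
    rw [conj_eq_iff_mem_normalizer, hNsy s hsf hsA] at h4
    exact hg0 h4
  -- `NA ⊓ H` is a `π(A)`-group
  have hcop : (Nat.card (NA ⊓ H : Subgroup G)).Coprime (Nat.card B) := by
    apply Nat.Coprime.symm
    apply Nat.coprime_of_dvd
    intro q hq hqB hqC
    have hqf : Fact q.Prime := ⟨hq⟩
    obtain ⟨z, hz⟩ := exists_prime_orderOf_dvd_card' (G := (NA ⊓ H : Subgroup G)) q hqC
    rw [← Subgroup.orderOf_coe] at hz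
    obtain ⟨x, hx⟩ := exists_mem_conj_sy h.nB (h.symm.not_dvd_index hq hqB) hz
    have hz1 : (z : G) ≠ 1 := by
      intro h0
      rw [h0, orderOf_one] at hz
      exact hq.one_lt.ne hz
    have hzN : (z : G) ∈ NA := z.2.1
    have hzH : (z : G) ∈ H := z.2.2
    obtain ⟨a, ha, b, hb, rfl⟩ := h.fac x
    rw [← conj_conj, conj_eq_iff_mem_normalizer.mpr (sy_normalizer B q hb), mem_conj] at hx
    set z0 := a⁻¹ * (z : G) * a with hz0
    set y' := a⁻¹ * y * a with hy'
    have hAN : A ≤ NA := Subgroup.le_normalizer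
    have hz0N : z0 ∈ NA := NA.mul_mem (NA.mul_mem (NA.inv_mem (hAN ha)) hzN) (hAN ha)
    have hz0B : z0 ∈ B := sy_le B q hx
    have hz01 : z0 ≠ 1 := by
      intro h0
      apply hz1
      have : (z : G) = a * z0 * a⁻¹ := by rw [hz0]; group
      rw [this, h0]; group
    have hy'P : y' ∈ P := by
      have h1 := sy_normalizer A p ha
      rw [← conj_eq_iff_mem_normalizer] at h1
      have h2 : y ∈ MulAut.conj a • P := by rw [h1]; exact hyP
      rwa [mem_conj] at h2
    have hy'A : y' ∈ A := sy_le A p hy'P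
    have hy'1 : y' ≠ 1 := by
      intro h0
      apply hy1
      have : y = a * y' * a⁻¹ := by rw [hy']; group
      rw [this, h0]; group
    have hcomm : y' * z0 = z0 * y' := by
      have h1 : (z : G) * y = y * z := Subgroup.mem_centralizer_singleton_iff.mp hzH
      calc y' * z0 = a⁻¹ * (y * z) * a := by rw [hy', hz0]; group
        _ = a⁻¹ * (z * y) * a := by rw [h1]
        _ = z0 * y' := by rw [hy', hz0]; group
    have h3 : Subgroup.centralizer {z0} ≤ Subgroup.normalizer (B : Set G) := by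
      apply h.L (h.centralizer_ne_top hz01) (fac_centralizer h.fac h.inf_eq_bot ⟨hz0B, hz0N⟩) q
      intro r hr hrq
      exact le_centralizer_singleton (sy_comm h.nB hrq le_rfl) hx
    have h4 : y' ∈ Subgroup.normalizer (B : Set G) :=
      h3 (Subgroup.mem_centralizer_singleton_iff.mpr hcomm)
    have h5 : Subgroup.centralizer {y'} ≤ NA := by
      apply h.symm.L (h.centralizer_ne_top hy'1)
        (fac_centralizer h.symm.fac h.symm.inf_eq_bot ⟨hy'A, h4⟩) p
      intro r hr hrq
      exact le_centralizer_singleton (sy_comm h.nA hrq le_rfl) hy'P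
    apply contra
    intro c hc
    have hc1 : c * y = y * c := Subgroup.mem_centralizer_singleton_iff.mp hc
    have h6 : a⁻¹ * c * a ∈ Subgroup.centralizer {y'} := by
      rw [Subgroup.mem_centralizer_singleton_iff]
      calc a⁻¹ * c * a * y' = a⁻¹ * (c * y) * a := by rw [hy']; group
        _ = a⁻¹ * (y * c) * a := by rw [hc1]
        _ = y' * (a⁻¹ * c * a) := by rw [hy']; group
    have h7 := NA.mul_mem (NA.mul_mem (hAN ha) (h5 h6)) (NA.inv_mem (hAN ha))
    have h8 : a * (a⁻¹ * c * a) * a⁻¹ = c := by group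
    rwa [h8] at h7
  have hKA : NA ⊓ H ≤ A := h.le_A_of_le_normalizer inf_le_left hcop
  set K := NA ⊓ H with hK
  have hKn : Group.IsNilpotent K := isNilpotent_of_le hKA h.nA
  have hAK : A ⊓ H ≤ K := inf_le_inf_right _ Subgroup.le_normalizer
  have hDK : D ≤ K := (inf_le_inf_right _ (sy_le A p)).trans hAK
  have hpK : p ∣ Nat.card K := by
    have h1 : IsPGroup p (Subgroup.zpowers y) := hPp.to_le (Subgroup.zpowers_le.mpr hyP)
    obtain ⟨n, hn⟩ := IsPGroup.iff_card.mp h1
    have h2 : n ≠ 0 := by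
      rintro rfl
      rw [pow_zero, Subgroup.card_eq_one, Subgroup.zpowers_eq_bot] at hn
      exact hy1 hn
    have h3 : Subgroup.zpowers y ≤ K := by
      rw [Subgroup.zpowers_le]
      exact hAK ⟨hyA, Subgroup.mem_centralizer_singleton_iff.mpr rfl⟩
    exact (dvd_pow_self p h2).trans (hn ▸ Subgroup.card_dvd_of_le h3)
  have hsK : s ∣ Nat.card K := by
    have h1 : Sy A s ≤ K := (le_inf (sy_le A s) hSH).trans hAK
    obtain ⟨n, hn⟩ := IsPGroup.iff_card.mp (sy_isPGroup A s)
    have h2 : n ≠ 0 := by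
      rintro rfl
      rw [pow_zero, Subgroup.card_eq_one] at hn
      exact sy_ne_bot h.nA hsA hn
    exact (dvd_pow_self s h2).trans (hn ▸ Subgroup.card_dvd_of_le h1)
  have hSyA : ∀ r : ℕ, ∀ _ : Fact r.Prime, r ≠ p → Sy K r = Sy A r := by
    intro r hr hrp
    apply le_antisymm (le_sy h.nA ((sy_le K r).trans hKA) (sy_isPGroup K r))
    apply le_sy hKn _ (sy_isPGroup A r)
    refine le_trans (le_inf (sy_le A r) ?_) hAK
    exact le_centralizer_singleton (sy_comm h.nA hrp le_rfl) hyP
  have hSyD : Sy K p = D := by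
    apply le_antisymm _ (le_sy hKn hDK (hPp.to_le inf_le_left))
    exact le_inf (le_sy h.nA ((sy_le K p).trans hKA) (sy_isPGroup K p)) ((sy_le K p).trans inf_le_right)
  obtain ⟨N, hNH, hHN, hNc, hNb⟩ := wielandt_in (K := K) (H := H) inf_le_right hKn (by
    intro q hq hqK
    by_cases hqp : q = p
    · exact ⟨s, hs, hqp ▸ hsp, hsK⟩
    · exact ⟨p, hp.out, Ne.symm hqp, hpK⟩) (by
    intro r hr hrK
    apply le_antisymm
    · by_cases hrp : r = p
      · subst hrp
        rw [hSyD]
        rintro x ⟨hx1, hx2⟩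
        have hx2' : x ∈ Subgroup.normalizer (D : Set G) := hx2
        refine ⟨hkey x ?_, hx1⟩
        rw [← conj_eq_iff_mem_normalizer] at hx2'
        rw [← hx2']
        exact conj_le_conj.mpr inf_le_left
      · rw [hSyA r hr hrp, hNsy r hr (hrK.trans (Subgroup.card_dvd_of_le hKA)), inf_comm]
    · exact le_inf inf_le_right (sy_normalizer K r))
  -- `N` is coprime to `A`
  have hKall : ∀ r : ℕ, r.Prime → r ∣ Nat.card A → r ∣ Nat.card K := by
    intro r hr hrA
    have hrf : Fact r.Prime := ⟨hr⟩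
    by_cases hrp : r = p
    · rw [hrp]; exact hpK
    · have h1 : Sy A r ≤ K := by rw [← hSyA r hrf hrp]; exact sy_le K r
      obtain ⟨n, hn⟩ := IsPGroup.iff_card.mp (sy_isPGroup A r)
      have h2 : n ≠ 0 := by
        rintro rfl
        rw [pow_zero, Subgroup.card_eq_one] at hn
        exact sy_ne_bot h.nA hrA hn
      exact (dvd_pow_self r h2).trans (hn ▸ Subgroup.card_dvd_of_le h1)
  have hNB : ∀ r : ℕ, r.Prime → r ∣ Nat.card N → r ∣ Nat.card B := by
    intro r hr hrN
    have h1 : r ∣ Nat.card A * Nat.card B := by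
      rw [← card_factor h.fac, h.inf_eq_bot, Subgroup.card_bot, mul_one]
      exact hrN.trans (Subgroup.card_subgroup_dvd_card N)
    rcases (hr.dvd_mul).mp h1 with h2 | h2
    · exact absurd (Nat.eq_one_of_dvd_coprimes hNc hrN (hKall r hr h2)) hr.one_lt.ne'
    · exact h2
  by_cases hN1 : N = ⊥
  · apply contra
    rw [hNb hN1]
    exact hKA.trans Subgroup.le_normalizer
  · obtain ⟨r, hr, hrN⟩ := Nat.exists_prime_and_dvd
      (fun h1 : Nat.card N = 1 => hN1 (Subgroup.card_eq_one.mp h1))
    have hrf : Fact r.Prime := ⟨hr⟩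
    obtain ⟨x, hx⟩ := wielandt_nilpotent_hall h.nB (by rw [h.symm.index_A]; exact h.cop.symm) hNB
    have hNn : Group.IsNilpotent N := isNilpotent_of_le hx (nilpotent_conj h.nB x)
    have hR1 : H ≤ Subgroup.normalizer (Sy N r : Set G) := sy_normalizer_of hNn hHN r
    have hR2 : Sy N r ≤ MulAut.conj x • Sy B r := by
      rw [← sy_conj h.nB]
      exact le_sy (nilpotent_conj h.nB x) ((sy_le N r).trans hx) (sy_isPGroup N r)
    obtain ⟨t, ht, htr, htB⟩ := h.symm.two_primes r hr
    have htf : Fact t.Prime := ⟨ht⟩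
    have hR3 : MulAut.conj x • Sy B t ≤ Subgroup.normalizer (Sy N r : Set G) :=
      (sy_conj_comm h.nB htr x hR2).trans (Subgroup.centralizer_le_normalizer _)
    have h3 := h.sup_eq_top hsA htB 1 x
    rw [conj_one] at h3
    exact h.normalizer_ne_top' (sy_isPGroup N r) (sy_ne_bot hNn hrN)
      (top_le_iff.mp (h3 ▸ sup_le (hSH.trans hR1) hR3))

theorem Ctx.ti [Finite G] {A B : Subgroup G} (h : Ctx A B) (g : G)
    (hg : g ∉ Subgroup.normalizer (A : Set G)) : A ⊓ MulAut.conj g • A = ⊥ := by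
  by_contra hne
  obtain ⟨p, hp, hpd⟩ := Nat.exists_prime_and_dvd
    (fun h1 : Nat.card (A ⊓ MulAut.conj g • A : Subgroup G) = 1 => hne (Subgroup.card_eq_one.mp h1))
  have hpf : Fact p.Prime := ⟨hp⟩
  have hn : Group.IsNilpotent (A ⊓ MulAut.conj g • A : Subgroup G) := isNilpotent_of_le inf_le_left h.nA
  apply sy_ne_bot hn hpd
  rw [eq_bot_iff, ← h.ti_sy (hpd.trans (Subgroup.card_dvd_of_le inf_le_left)) g hg, ← sy_conj h.nA]
  exact le_inf (le_sy h.nA ((sy_le _ p).trans inf_le_left) (sy_isPGroup _ p))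
    (le_sy (nilpotent_conj h.nA g) ((sy_le _ p).trans inf_le_right) (sy_isPGroup _ p))

theorem Ctx.card_lt [Finite G] {A B : Subgroup G} (h : Ctx A B) : Nat.card A < Nat.card B := by
  set NA := Subgroup.normalizer (A : Set G) with hNA
  have hNt : NA ≠ ⊤ := h.normalizer_ne_top h.A_ne_bot h.A_ne_top
  have hAN : A ≤ NA := Subgroup.le_normalizer
  obtain ⟨g, hg⟩ : ∃ g : G, g ∉ NA := by
    by_contra hcon
    push Not at hcon
    exact hNt (eq_top_iff.mpr fun x _ => hcon x)
  -- `A ⊓ conj g • NA = ⊥`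
  have hint : A ⊓ MulAut.conj g • NA = ⊥ := by
    rw [eq_bot_iff, ← h.ti g hg]
    refine le_inf inf_le_left ?_
    have h1 : MulAut.conj g⁻¹ • (A ⊓ MulAut.conj g • NA) ≤ NA := by
      have := (conj_le_conj (g := g⁻¹)).mpr (inf_le_right : A ⊓ MulAut.conj g • NA ≤ _)
      rwa [conj_conj, inv_mul_cancel, conj_one] at this
    have h2 := h.le_A_of_le_normalizer h1 (by
      rw [card_conj]
      exact Nat.Coprime.coprime_dvd_left (Subgroup.card_dvd_of_le inf_le_left) h.cop)
    have := (conj_le_conj (g := g)).mpr h2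
    rwa [conj_conj, mul_inv_cancel, conj_one] at this
  let φ : Option A → G ⧸ NA := fun o => o.elim (QuotientGroup.mk 1) (fun a => QuotientGroup.mk ((a : G) * g))
  have hφ : Function.Injective φ := by
    intro o o' ho
    rcases o with _ | a
    · rcases o' with _ | a'
      · rfl
      · exfalso
        have h1 : (1 : G)⁻¹ * ((a' : G) * g) ∈ NA := QuotientGroup.eq.mp ho
        rw [inv_one, one_mul] at h1
        apply hg
        have := NA.mul_mem (NA.inv_mem (hAN a'.2)) h1
        rwa [inv_mul_cancel_left] at this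
    · rcases o' with _ | a'
      · exfalso
        have h1 : ((a : G) * g)⁻¹ * 1 ∈ NA := QuotientGroup.eq.mp ho
        rw [mul_one] at h1
        have h1' := NA.inv_mem h1
        rw [inv_inv] at h1'
        apply hg
        have := NA.mul_mem (NA.inv_mem (hAN a.2)) h1'
        rwa [inv_mul_cancel_left] at this
      · have h1 : ((a : G) * g)⁻¹ * ((a' : G) * g) ∈ NA := QuotientGroup.eq.mp ho
        have h2 : (a : G)⁻¹ * a' ∈ A ⊓ MulAut.conj g • NA := by
          refine ⟨A.mul_mem (A.inv_mem a.2) a'.2, ?_⟩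
          have h3 : (a : G)⁻¹ * a' ∈ MulAut.conj g • NA := by
            rw [mem_conj]
            have e : g⁻¹ * ((a : G)⁻¹ * a') * g = ((a : G) * g)⁻¹ * ((a' : G) * g) := by group
            rw [e]; exact h1
          exact h3
        rw [hint, Subgroup.mem_bot, inv_mul_eq_one] at h2
        rw [Subtype.ext h2]
  have h1 := Nat.card_le_card_of_injective φ hφ
  rw [Finite.card_option] at h1
  have h2 : Nat.card (G ⧸ NA) ∣ Nat.card B := by
    rw [← h.index_A]
    exact Subgroup.index_dvd_of_le hAN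
  exact lt_of_lt_of_le (Nat.lt_of_succ_le h1) (Nat.le_of_dvd Nat.card_pos h2)

theorem Ctx.false [Finite G] {A B : Subgroup G} (h : Ctx A B) : False :=
  absurd (h.card_lt.trans h.symm.card_lt) (lt_irrefl _)

end Ctx

end Cfsg.Agent.H1.KW
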