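import Mathlib
import Cfsg.Agent.H1_KW3

set_option autoImplicit false

open Pointwise
open scoped commutatorElement
open Cfsg.Agent.H1.Basic Cfsg.Agent.H1.Nilp Cfsg.Agent.H1.Hall Cfsg.Agent.H1.Factor
open Cfsg.Agent.H1.Wiel Cfsg.Agent.H1.SZ Cfsg.Agent.H1.Schmidt Cfsg.Agent.H1.Kegel

universe u

namespace Cfsg.Agent.H1.KW

section Coprime

variable {G : Type*} [Group G]

theorem nilpotent_subgroupOf {A : Subgroup G} (hA : Group.IsNilpotent A) (X : Subgroup G) :
    Group.IsNilpotent (A.subgroupOf X) := by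
  have h1 : Group.IsNilpotent (A ⊓ X : Subgroup G) := isNilpotent_of_le inf_le_left hA
  rw [← Subgroup.inf_subgroupOf_right]
  exact (Group.isNilpotent_congr (Subgroup.subgroupOfEquivOfLe (inf_le_right : A ⊓ X ≤ X)).symm).mp h1

theorem nilpotent_map {G' : Type*} [Group G'] (f : G →* G') {A : Subgroup G}
    (hA : Group.IsNilpotent A) : Group.IsNilpotent (A.map f) :=
  Group.nilpotent_of_surjective (f := f.subgroupMap A) (MonoidHom.subgroupMap_surjective _ _)

theorem card_subgroupOf_dvd [Finite G] (A X : Subgroup G) :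
    Nat.card (A.subgroupOf X) ∣ Nat.card A := by
  rw [← Subgroup.inf_subgroupOf_right, card_subgroupOf inf_le_right]
  exact Subgroup.card_dvd_of_le inf_le_left

theorem fac_subgroupOf {A B X : Subgroup G} (h : Fac A B X) (x : X) :
    ∃ a ∈ A.subgroupOf X, ∃ b ∈ B.subgroupOf X, x = a * b := by
  obtain ⟨a, ha, b, hb, hab⟩ := h x x.2
  exact ⟨⟨a, ha.2⟩, Subgroup.mem_subgroupOf.mpr ha.1, ⟨b, hb.2⟩,
    Subgroup.mem_subgroupOf.mpr hb.1, Subtype.ext hab⟩

theorem fac_of_normal [Finite G] {A B : Subgroup G} (hcop : (Nat.card A).Coprime (Nat.card B))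
    (hfac : ∀ g : G, ∃ a ∈ A, ∃ b ∈ B, g = a * b) (N : Subgroup G) [hN : N.Normal] :
    Fac A B N := by
  have hi : A ⊓ B = ⊥ := disjoint_of_coprime_card hcop
  have hrel : ∀ C : Subgroup G, C.relIndex N ∣ C.index := by
    intro C
    have h3 : C.relIndex (N ⊔ C) = C.relIndex N := by
      apply relIndex_eq_of_factor le_sup_left
      intro l hl
      rw [← SetLike.mem_coe, Subgroup.normal_mul N C] at hl
      obtain ⟨x, hx, y, hy, rfl⟩ := Set.mem_mul.mp hl
      exact ⟨x, hx, by simpa using hy⟩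
    rw [← h3]
    exact Subgroup.relIndex_dvd_index_of_le le_sup_right
  have hc := card_factor hfac
  rw [hi, Subgroup.card_bot, mul_one] at hc
  have h1 : A.index = Nat.card B := by
    rw [← A.card_mul_index] at hc
    exact Nat.eq_of_mul_eq_mul_left Nat.card_pos hc
  have h2 : B.index = Nat.card A := by
    rw [← B.card_mul_index, mul_comm (Nat.card A)] at hc
    exact Nat.eq_of_mul_eq_mul_left Nat.card_pos hc
  have h3 : (A.subgroupOf N).index.Coprime (B.subgroupOf N).index := by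
    apply Nat.Coprime.coprime_dvd_left (hrel A)
    apply Nat.Coprime.coprime_dvd_right (hrel B)
    rw [h1, h2]
    exact hcop.symm
  intro x hx
  obtain ⟨a, ha, b, hb, he⟩ := (index_inf_of_coprime _ _ h3).2 ⟨x, hx⟩
  exact ⟨a, ⟨Subgroup.mem_subgroupOf.mp ha, a.2⟩, b, ⟨Subgroup.mem_subgroupOf.mp hb, b.2⟩,
    congrArg Subtype.val he⟩

end Coprime

theorem kw_coprime_aux (n : ℕ) : ∀ (G : Type u) [Group G] [Finite G], Nat.card G = n →
    ∀ (A B : Subgroup G), Group.IsNilpotent A → Group.IsNilpotent B →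
    (Nat.card A).Coprime (Nat.card B) →
    (∀ g : G, ∃ a ∈ A, ∃ b ∈ B, g = a * b) → Group.IsSolvable G := by
  induction n using Nat.strong_induction_on with | _ n ih => ?_
  intro G _ _ hn A B hA hB hcop hfac
  by_contra hns
  have hX : ∀ X : Subgroup G, X ≠ ⊤ → Fac A B X → Group.IsSolvable X := by
    intro X hXt hXf
    exact ih (Nat.card X) (hn ▸ card_subgroup_lt hXt) X rfl (A.subgroupOf X) (B.subgroupOf X)
      (nilpotent_subgroupOf hA X) (nilpotent_subgroupOf hB X)
      (Nat.Coprime.coprime_dvd_left (card_subgroupOf_dvd A X)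
        (Nat.Coprime.coprime_dvd_right (card_subgroupOf_dvd B X) hcop)) (fac_subgroupOf hXf)
  have hctx : Ctx A B :=
    { nA := hA
      nB := hB
      cop := hcop
      fac := hfac
      simple := by
        intro N hN
        by_contra hcon
        push Not at hcon
        obtain ⟨hNb, hNt⟩ := hcon
        have h1 : Group.IsSolvable N := hX N hNt (fac_of_normal hcop hfac N)
        have h2 : Group.IsSolvable (G ⧸ N) := by
          apply ih (Nat.card (G ⧸ N)) (hn ▸ card_quotient_lt hNb) (G ⧸ N) rfl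
            (A.map (QuotientGroup.mk' N)) (B.map (QuotientGroup.mk' N)) (nilpotent_map _ hA)
            (nilpotent_map _ hB)
          · exact Nat.Coprime.coprime_dvd_left (Subgroup.card_map_dvd _ _)
              (Nat.Coprime.coprime_dvd_right (Subgroup.card_map_dvd _ _) hcop)
          · exact factor_map _ (QuotientGroup.mk'_surjective N) hfac
        exact hns (solvable_of_normal_quotient h1 h2)
      ih := hX
      nns := hns }
  exact hctx.false

theorem kw_coprime {G : Type*} [Group G] [Finite G] {A B : Subgroup G} (hA : Group.IsNilpotent A)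
    (hB : Group.IsNilpotent B) (hcop : (Nat.card A).Coprime (Nat.card B))
    (hfac : ∀ g : G, ∃ a ∈ A, ∃ b ∈ B, g = a * b) : Group.IsSolvable G :=
  kw_coprime_aux _ G rfl A B hA hB hcop hfac

section PL

variable {G : Type*} [Group G]

/-- `U` permutes with all conjugates of `V` -/
def PP (U V : Subgroup G) : Prop :=
  ∀ x : G, ∃ S : Subgroup G, (S : Set G) = (U : Set G) * ((MulAut.conj x • V : Subgroup G) : Set G)

theorem exists_of_permute {U V S : Subgroup G} (h : (S : Set G) = (U : Set G) * V) :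
    ∃ S' : Subgroup G, (S' : Set G) = (V : Set G) * U := by
  refine ⟨S, ?_⟩
  rw [h, permute_of_coe h]

theorem PP.symm {U V : Subgroup G} (h : PP U V) : PP V U := by
  intro x
  obtain ⟨S, hS⟩ := h x⁻¹
  have h1 := smul_mul_set x _ _ hS
  rw [conj_conj, mul_inv_cancel, conj_one] at h1
  exact exists_of_permute h1

theorem PP.conj {U V : Subgroup G} (h : PP U V) (g : G) : PP (MulAut.conj g • U) V := by
  intro x
  obtain ⟨S, hS⟩ := h (g⁻¹ * x)
  have h1 := smul_mul_set g _ _ hS
  rw [conj_conj, mul_inv_cancel_left] at h1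
  exact ⟨_, h1⟩

theorem PP.map {G' : Type*} [Group G'] (f : G →* G') (hf : Function.Surjective f)
    {U V : Subgroup G} (h : PP U V) : PP (U.map f) (V.map f) := by
  intro x
  obtain ⟨g, rfl⟩ := hf x
  obtain ⟨S, hS⟩ := h g
  refine ⟨S.map f, ?_⟩
  rw [← map_conj, Subgroup.coe_map, hS, Set.image_mul, Subgroup.coe_map, Subgroup.coe_map]

theorem PP.subgroupOf {U V N : Subgroup G} (hU : U ≤ N) (h : PP U V) :
    PP (U.subgroupOf N) (V.subgroupOf N) := by
  intro x
  obtain ⟨S, hS⟩ := h (x : G)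
  refine ⟨S.subgroupOf N, ?_⟩
  ext y
  constructor
  · intro hy
    have h1 : (y : G) ∈ (S : Set G) := hy
    rw [hS] at h1
    obtain ⟨u, hu, v, hv, huv⟩ := h1
    have huv' : u * v = y := huv
    have hvN : v ∈ N := by
      have h2 := N.mul_mem (N.inv_mem (hU hu)) y.2
      rw [← huv', inv_mul_cancel_left] at h2
      exact h2
    refine ⟨⟨u, hU hu⟩, hu, ⟨v, hvN⟩, ?_, Subtype.ext huv⟩
    rw [SetLike.mem_coe, mem_conj, Subgroup.mem_subgroupOf]
    exact mem_conj.mp hv
  · rintro ⟨u, hu, v, hv, rfl⟩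
    rw [SetLike.mem_coe, mem_conj, Subgroup.mem_subgroupOf] at hv
    have h1 : (u : G) * v ∈ (S : Set G) := by
      rw [hS]
      exact ⟨u, hu, v, mem_conj.mpr hv, rfl⟩
    exact h1

theorem isPGroup_of_mul [Finite G] {p : ℕ} [hp : Fact p.Prime] {U V S : Subgroup G}
    (hU : IsPGroup p U) (hV : IsPGroup p V) (hS : (S : Set G) = (U : Set G) * V) : IsPGroup p S := by
  have hUS : U ≤ S := by
    intro x hx
    rw [← SetLike.mem_coe, hS]
    exact ⟨x, hx, 1, Subgroup.one_mem _, by simp⟩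
  have hVS : V ≤ S := by
    intro x hx
    rw [← SetLike.mem_coe, hS]
    exact ⟨1, Subgroup.one_mem _, x, hx, by simp⟩
  have h1 : V.relIndex S = V.relIndex U := by
    apply relIndex_eq_of_factor hUS
    intro l hl
    rw [← SetLike.mem_coe, hS] at hl
    obtain ⟨u, hu, v, hv, rfl⟩ := hl
    exact ⟨u, hu, by simpa using hv⟩
  have h2 := relIndex_mul_card hVS
  rw [h1] at h2
  obtain ⟨m, hm⟩ := IsPGroup.iff_card.mp hU
  obtain ⟨k, hk⟩ := IsPGroup.iff_card.mp hV
  obtain ⟨j, -, hj⟩ := (Nat.dvd_prime_pow hp.out).mp (hm ▸ Subgroup.relIndex_dvd_card V U)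
  rw [hj, hk, ← pow_add] at h2
  exact IsPGroup.of_card h2.symm

theorem pCore_characteristic [Finite G] (p : ℕ) [Fact p.Prime] : (Cfsg.pCore p G).Characteristic := by
  rw [Subgroup.characteristic_iff_map_le]
  intro ϕ
  have h1 : (Cfsg.pCore p G).Normal := Cfsg.Agent.H1.Nilp.pCore_normal p
  apply Cfsg.Agent.H1.Nilp.le_pCore
  · exact h1.map _ ϕ.surjective
  · exact (Cfsg.Agent.H1.Nilp.pCore_isPGroup p).map _

theorem pCore_sub_le [Finite G] (p : ℕ) [Fact p.Prime] (N : Subgroup G) [hN : N.Normal] :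
    (Cfsg.pCore p N).map N.subtype ≤ Cfsg.pCore p G := by
  have h1 : (Cfsg.pCore p N).Characteristic := pCore_characteristic p
  apply Cfsg.Agent.H1.Nilp.le_pCore inferInstance
  exact (Cfsg.Agent.H1.Nilp.pCore_isPGroup (G := N) p).map _

theorem eq_bot_of_normal_in [Finite G] {p : ℕ} [Fact p.Prime] (hb : Cfsg.pCore p G = ⊥)
    {N W : Subgroup G} (hN : N.Normal) (hW : W ≤ N) (hWn : N ≤ Subgroup.normalizer (W : Set G))
    (hWp : IsPGroup p W) : W = ⊥ := by
  have h1 : (W.subgroupOf N).Normal := (Subgroup.normal_subgroupOf_iff_le_normalizer hW).mpr hWn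
  have h2 : W.subgroupOf N ≤ Cfsg.pCore p N := Cfsg.Agent.H1.Nilp.le_pCore h1 hWp.comap_subtype
  rw [eq_bot_iff, ← hb]
  refine le_trans ?_ (pCore_sub_le p N)
  intro x hx
  exact ⟨⟨x, hW hx⟩, h2 (Subgroup.mem_subgroupOf.mpr hx), rfl⟩

end PL

theorem p_lemma_core {G : Type*} [Group G] [Finite G] {p : ℕ} [hp : Fact p.Prime]
    (ih : ∀ (N : Subgroup G), N ≠ ⊤ → ∀ U V : Subgroup N, IsPGroup p U →
      IsPGroup p V → PP U V → ⁅U, V⁆ ≤ Cfsg.pCore p N)
    (hO : Cfsg.pCore p G = ⊥) {U V N : Subgroup G} (hU : IsPGroup p U) (hV : IsPGroup p V)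
    (hUV : PP U V) [hN : N.Normal] (hNt : N ≠ ⊤) (hUN : U ≤ N) : ⁅U, V⁆ = ⊥ := by
  set N₀ := Subgroup.normalClosure (U : Set G) with hN₀
  have hN₀n : N₀.Normal := Subgroup.normalClosure_normal
  have hN₀N : N₀ ≤ N := Subgroup.normalClosure_le_normal hUN
  have hN₀t : N₀ ≠ ⊤ := fun h => hNt (top_le_iff.mp (h ▸ hN₀N))
  have hUN₀ : ∀ g : G, MulAut.conj g • U ≤ N₀ := by
    intro g
    have := (conj_le_conj (g := g)).mpr (Subgroup.subset_normalClosure : U ≤ N₀)
    rwa [conj_of_normal g N₀] at this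
  have hON₀ : Cfsg.pCore p N₀ = ⊥ := by
    have h1 := pCore_sub_le p N₀
    rw [hO, le_bot_iff] at h1
    exact (Subgroup.map_eq_bot_iff_of_injective _ N₀.subtype_injective).mp h1
  -- `V ⊓ N₀` centralizes `N₀`
  have hc1 : N₀ ≤ Subgroup.centralizer ((V ⊓ N₀ : Subgroup G) : Set G) := by
    apply normalClosure_le_of_conj_le
    intro g
    have h1 := ih N₀ hN₀t ((MulAut.conj g • U).subgroupOf N₀) (V.subgroupOf N₀)
      (isPGroup_conj hU g).comap_subtype hV.comap_subtype ((hUV.conj g).subgroupOf (hUN₀ g))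
    rw [hON₀, le_bot_iff, Subgroup.commutator_eq_bot_iff_le_centralizer] at h1
    intro x hx
    rw [Subgroup.mem_centralizer_iff]
    rintro y ⟨hy1, hy2⟩
    have hy1' : y ∈ V := hy1
    have hy2' : y ∈ N₀ := hy2
    have h2 := h1 (x := ⟨x, hUN₀ g hx⟩) (Subgroup.mem_subgroupOf.mpr hx)
    rw [Subgroup.mem_centralizer_iff] at h2
    exact congrArg Subtype.val (h2 ⟨y, hy2'⟩ (Subgroup.mem_subgroupOf.mpr hy1'))
  have hVN₀ : V ⊓ N₀ = ⊥ := by
    apply eq_bot_of_normal_in hO hN₀n inf_le_right _ (hV.to_le inf_le_left)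
    exact hc1.trans (Subgroup.centralizer_le_normalizer _)
  -- `V` normalizes all conjugates of `U`
  have hn : ∀ g : G, V ≤ Subgroup.normalizer ((MulAut.conj g • U : Subgroup G) : Set G) := by
    intro g v hv
    rw [← conj_eq_iff_mem_normalizer]
    apply eq_of_le_of_card_ge' _ (card_conj v _).ge
    obtain ⟨S, hS⟩ := (hUV.conj g) 1
    rw [conj_one] at hS
    intro z hz
    rw [mem_conj] at hz
    set u := v⁻¹ * z * v with hu
    have hz' : z = v * u * v⁻¹ := by rw [hu]; group
    have huS : u ∈ S := by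
      rw [← SetLike.mem_coe, hS]
      exact ⟨u, hz, 1, Subgroup.one_mem _, by simp⟩
    have hvS : v ∈ S := by
      rw [← SetLike.mem_coe, hS]
      exact ⟨1, Subgroup.one_mem _, v, hv, by simp⟩
    have hzS : z ∈ (S : Set G) := by
      rw [hz']; exact S.mul_mem (S.mul_mem hvS huS) (S.inv_mem hvS)
    rw [hS] at hzS
    obtain ⟨u', hu', v', hv', he⟩ := hzS
    have he' : u' * v' = z := he
    have hzN : z ∈ N₀ := by rw [hz']; exact hN₀n.conj_mem _ (hUN₀ g hz) _
    have hv'N : v' ∈ V ⊓ N₀ := by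
      refine ⟨hv', ?_⟩
      have h2 := N₀.mul_mem (N₀.inv_mem (hUN₀ g hu')) hzN
      rw [← he', inv_mul_cancel_left] at h2
      exact h2
    rw [hVN₀, Subgroup.mem_bot] at hv'N
    rw [← he', hv'N, mul_one]
    exact hu'
  set M := Subgroup.normalClosure (V : Set G) with hM
  have hMn : M.Normal := Subgroup.normalClosure_normal
  have hMU : M ≤ Subgroup.normalizer (U : Set G) := by
    apply normalClosure_le_of_conj_le
    intro g x hx
    rw [mem_conj] at hx
    have h1 := hn g⁻¹ hx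
    rw [← conj_eq_iff_mem_normalizer] at h1 ⊢
    have h2 := congrArg (fun H => MulAut.conj g • H) h1
    simp only [conj_conj] at h2
    rw [mul_inv_cancel, conj_one] at h2
    have h3 : g * (g⁻¹ * x * g * g⁻¹) = x := by group
    rw [h3] at h2
    exact h2
  have hVM : V ≤ M := Subgroup.subset_normalClosure
  have hUM : U ⊓ M = ⊥ := by
    apply eq_bot_of_normal_in hO hMn inf_le_right _ (hU.to_le inf_le_left)
    intro x hx
    have h1 := hMU hx
    rw [← conj_eq_iff_mem_normalizer] at h1 ⊢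
    rw [Subgroup.smul_inf, h1, conj_of_normal]
  rw [eq_bot_iff, ← hUM, Subgroup.commutator_le]
  intro u hu v hv
  refine ⟨?_, ?_⟩
  · have h1 := (Subgroup.mem_normalizer_iff.mp (hMU (hVM hv)) u⁻¹).mp (U.inv_mem hu)
    have h2 : ⁅u, v⁆ = u * (v * u⁻¹ * v⁻¹) := by rw [commutatorElement_def]; group
    rw [h2]
    exact U.mul_mem hu h1
  · have h2 : ⁅u, v⁆ = (u * v * u⁻¹) * v⁻¹ := by rw [commutatorElement_def]
    have h3 : ⁅u, v⁆ ∈ M := by
      rw [h2]
      exact M.mul_mem (hMn.conj_mem _ (hVM hv) _) (M.inv_mem (hVM hv))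
    exact h3

theorem p_lemma_aux (n : ℕ) : ∀ (G : Type u) [Group G] [Finite G], Nat.card G = n →
    ∀ (p : ℕ) [Fact p.Prime] (U V : Subgroup G), IsPGroup p U → IsPGroup p V → PP U V →
    ⁅U, V⁆ ≤ Cfsg.pCore p G := by
  induction n using Nat.strong_induction_on with | _ n ih => ?_
  intro G _ _ hn p hp U V hU hV hUV
  have hOn : (Cfsg.pCore p G).Normal := Cfsg.Agent.H1.Nilp.pCore_normal p
  have hOp : IsPGroup p (Cfsg.pCore p G) := Cfsg.Agent.H1.Nilp.pCore_isPGroup p
  by_cases hO : Cfsg.pCore p G = ⊥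
  · by_cases hG : IsPGroup p (⊤ : Subgroup G)
    · exact le_top.trans (Cfsg.Agent.H1.Nilp.le_pCore inferInstance hG)
    have ih' : ∀ (N : Subgroup G), N ≠ ⊤ → ∀ U V : Subgroup N, IsPGroup p U →
      IsPGroup p V → PP U V → ⁅U, V⁆ ≤ Cfsg.pCore p N := fun N hN U V h1 h2 h3 =>
        ih (Nat.card N) (hn ▸ card_subgroup_lt hN) N rfl p U V h1 h2 h3
    have hKP : KP U V := by
      intro x
      obtain ⟨S, hS⟩ := hUV x
      refine ⟨S, ?_, hS⟩
      rintro rfl
      exact hG (isPGroup_of_mul hU (isPGroup_conj hV x) hS)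
    obtain ⟨N, hN, hNt, h1⟩ := kegel_aux hKP
    rcases h1 with h1 | h1
    · rw [p_lemma_core ih' hO hU hV hUV hNt h1]
      exact bot_le
    · rw [Subgroup.commutator_comm, p_lemma_core ih' hO hV hU hUV.symm hNt h1]
      exact bot_le
  · set f := QuotientGroup.mk' (Cfsg.pCore p G) with hf
    have h1 := ih (Nat.card (G ⧸ Cfsg.pCore p G)) (hn ▸ card_quotient_lt hO) _ rfl p (U.map f)
      (V.map f) (hU.map _) (hV.map _) (hUV.map f (QuotientGroup.mk'_surjective _))
    rw [← Subgroup.map_commutator, Subgroup.map_le_iff_le_comap] at h1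
    refine h1.trans ?_
    have hn' : (Cfsg.pCore p (G ⧸ Cfsg.pCore p G)).Normal := Cfsg.Agent.H1.Nilp.pCore_normal p
    apply Cfsg.Agent.H1.Nilp.le_pCore (hn'.comap f)
    apply (Cfsg.Agent.H1.Nilp.pCore_isPGroup (G := G ⧸ Cfsg.pCore p G) p).comap_of_ker_isPGroup
    rw [hf, QuotientGroup.ker_mk']
    exact hOp

theorem p_lemma {G : Type*} [Group G] [Finite G] {p : ℕ} [Fact p.Prime] {U V : Subgroup G}
    (hU : IsPGroup p U) (hV : IsPGroup p V) (h : PP U V) : ⁅U, V⁆ ≤ Cfsg.pCore p G :=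
  p_lemma_aux _ G rfl p U V hU hV h

section

variable {G : Type*} [Group G]

theorem sylow_map_eq_sy [Finite G] {A : Subgroup G} (hA : Group.IsNilpotent A) {p : ℕ}
    [Fact p.Prime] (P : Sylow p A) : (P : Subgroup A).map A.subtype = Sy A p := by
  have h2 : (P : Subgroup A).Normal := inferInstance
  have h3 : (P : Subgroup A) ≤ Cfsg.pCore p A := Cfsg.Agent.H1.Nilp.le_pCore h2 P.2
  have h4 : Cfsg.pCore p A = P := P.3 (Cfsg.Agent.H1.Nilp.pCore_isPGroup p) h3
  rw [Sy, h4]

theorem pp_sy [Finite G] {A B : Subgroup G} (hA : Group.IsNilpotent A) (hB : Group.IsNilpotent B)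
    (hfac : ∀ g : G, ∃ a ∈ A, ∃ b ∈ B, g = a * b) (p : ℕ) [Fact p.Prime] :
    PP (Sy A p) (Sy B p) := by
  obtain ⟨P, Q, R, hR⟩ := sylow_factor hfac p
  rw [sylow_map_eq_sy hA, sylow_map_eq_sy hB] at hR
  intro x
  obtain ⟨g, hg1, hg2⟩ := simul_conj hfac (sy_normalizer A p) (sy_normalizer B p) 1 x
  rw [conj_one] at hg1
  refine ⟨MulAut.conj g • (R : Subgroup G), ?_⟩
  rw [hg2]
  conv_rhs => rw [hg1]
  exact smul_mul_set g _ _ hR

theorem PP.conj_right {U V : Subgroup G} (h : PP U V) (g : G) : PP U (MulAut.conj g • V) :=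
  (h.symm.conj g).symm

theorem solvable_of_quotients {M L : Subgroup G} [M.Normal] [L.Normal]
    (hM : Group.IsSolvable (G ⧸ M)) (hL : Group.IsSolvable (G ⧸ L))
    (hi : Group.IsSolvable (M ⊓ L : Subgroup G)) : Group.IsSolvable G := by
  refine Group.isSolvable_of_ker_le_range (M ⊓ L : Subgroup G).subtype
    ((QuotientGroup.mk' M).prod (QuotientGroup.mk' L)) ?_
  rw [MonoidHom.ker_prod, QuotientGroup.ker_mk', QuotientGroup.ker_mk', Subgroup.range_subtype]

end

theorem kw_aux (n : ℕ) : ∀ (G : Type u) [Group G] [Finite G], Nat.card G = n →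
    ∀ (A B : Subgroup G), Group.IsNilpotent A → Group.IsNilpotent B →
    (∀ g : G, ∃ a ∈ A, ∃ b ∈ B, g = a * b) → Group.IsSolvable G := by
  induction n using Nat.strong_induction_on with | _ n ih => ?_
  intro G _ _ hn A B hA hB hfac
  by_cases hcop : (Nat.card A).Coprime (Nat.card B)
  · exact kw_coprime hA hB hcop hfac
  obtain ⟨p, hp, hpA, hpB⟩ := Nat.Prime.not_coprime_iff_dvd.mp hcop
  have hpf : Fact p.Prime := ⟨hp⟩
  have hquot : ∀ N : Subgroup G, ∀ _ : N.Normal, N ≠ ⊥ → Group.IsSolvable (G ⧸ N) := by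
    intro N hN hNb
    exact ih (Nat.card (G ⧸ N)) (hn ▸ card_quotient_lt hNb) (G ⧸ N) rfl
      (A.map (QuotientGroup.mk' N)) (B.map (QuotientGroup.mk' N)) (nilpotent_map _ hA)
      (nilpotent_map _ hB) (factor_map _ (QuotientGroup.mk'_surjective N) hfac)
  have hOn : (Cfsg.pCore p G).Normal := Cfsg.Agent.H1.Nilp.pCore_normal p
  have hOp : IsPGroup p (Cfsg.pCore p G) := Cfsg.Agent.H1.Nilp.pCore_isPGroup p
  by_cases hO : Cfsg.pCore p G = ⊥
  · have hPP := pp_sy hA hB hfac p
    set U := Sy A p with hU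
    set V := Sy B p with hV
    set M := Subgroup.normalClosure (U : Set G) with hM
    set L := Subgroup.normalClosure (V : Set G) with hL
    have hMn : M.Normal := Subgroup.normalClosure_normal
    have hLn : L.Normal := Subgroup.normalClosure_normal
    have hUM : U ≤ M := Subgroup.subset_normalClosure
    have hVL : V ≤ L := Subgroup.subset_normalClosure
    have hMb : M ≠ ⊥ := fun h => sy_ne_bot hA hpA (le_bot_iff.mp (h ▸ hUM))
    have hLb : L ≠ ⊥ := fun h => sy_ne_bot hB hpB (le_bot_iff.mp (h ▸ hVL))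
    have hML : M ≤ Subgroup.centralizer (L : Set G) := by
      rw [Subgroup.le_centralizer_iff]
      apply normalClosure_le_of_conj_le
      intro y
      rw [Subgroup.le_centralizer_iff]
      apply normalClosure_le_of_conj_le
      intro x
      have h1 := p_lemma (isPGroup_conj (sy_isPGroup A p) x) (isPGroup_conj (sy_isPGroup B p) y)
        ((hPP.conj x).conj_right y)
      rw [hO, le_bot_iff, Subgroup.commutator_eq_bot_iff_le_centralizer] at h1
      exact h1
    refine solvable_of_quotients (hquot M hMn hMb) (hquot L hLn hLb) ?_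
    have h3 : IsMulCommutative (M ⊓ L : Subgroup G) := by
      apply isMulCommutative_of_forall
      intro x hx y hy
      have hx' : x ∈ L := hx.2
      have hy' : y ∈ M := hy.1
      exact (Subgroup.mem_centralizer_iff.mp (hML hy')) x hx'
    open scoped IsMulCommutative in
    infer_instance
  · have h1 : Group.IsSolvable (Cfsg.pCore p G) := by
      have h2 : Group.IsNilpotent (Cfsg.pCore p G) := hOp.isNilpotent
      infer_instance
    exact solvable_of_normal_quotient h1 (hquot _ hOn hO)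

/-- Kegel--Wielandt -/
theorem kw {G : Type*} [Group G] [Finite G] {A B : Subgroup G} (hA : Group.IsNilpotent A)
    (hB : Group.IsNilpotent B) (hfac : ∀ g : G, ∃ a ∈ A, ∃ b ∈ B, g = a * b) :
    Group.IsSolvable G :=
  kw_aux _ G rfl A B hA hB hfac

/-- product of Sylow subgroups (S0563) -/
theorem kw_product {G : Type*} [Group G] [Finite G] {A B : Subgroup G} (hA : Group.IsNilpotent A)
    (hB : Group.IsNilpotent B) (hcop : (Nat.card A).Coprime (Nat.card B))
    (hfac : ∀ g : G, ∃ a ∈ A, ∃ b ∈ B, g = a * b) (p q : ℕ) [hp : Fact p.Prime]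
    [hq : Fact q.Prime] : ∃ S : Subgroup G, (S : Set G) = (Sy A p : Set G) * (Sy B q : Set G) := by
  have hs : Group.IsSolvable G := kw hA hB hfac
  have hi : A ⊓ B = ⊥ := disjoint_of_coprime_card hcop
  have hc := card_factor hfac
  rw [hi, Subgroup.card_bot, mul_one] at hc
  have h1 : A.index = Nat.card B := by
    rw [← A.card_mul_index] at hc
    exact Nat.eq_of_mul_eq_mul_left Nat.card_pos hc
  have h2 : B.index = Nat.card A := by
    rw [← B.card_mul_index, mul_comm (Nat.card A)] at hc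
    exact Nat.eq_of_mul_eq_mul_left Nat.card_pos hc
  have key : ∀ (C D : Subgroup G) (r : ℕ) (_ : Fact r.Prime), Group.IsNilpotent C →
      (Nat.card C).Coprime (Nat.card D) → C.index = Nat.card D →
      (Nat.card (Sy C r)).Coprime (Sy C r).index := by
    intro C D r hr hC hCD hi
    obtain ⟨n, hn⟩ := IsPGroup.iff_card.mp (sy_isPGroup C r)
    rcases Nat.eq_zero_or_pos n with h0 | h0
    · rw [hn, h0, pow_zero]; exact Nat.coprime_one_left _
    · have h3 : r ∣ Nat.card C := (dvd_pow_self r h0.ne').trans (hn ▸ Subgroup.card_dvd_of_le (sy_le C r))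
      rw [hn]
      apply Nat.Coprime.pow_left
      rw [hr.out.coprime_iff_not_dvd]
      apply sy_not_dvd_index hC
      rw [hi]
      intro h4
      exact hr.out.one_lt.ne' (Nat.eq_one_of_dvd_coprimes hCD h3 h4)
  exact hall_product hfac (sy_normalizer A p) (sy_normalizer B q) (key A B p hp hA hcop h1)
    (key B A q hq hB hcop.symm h2)

end Cfsg.Agent.H1.KW
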