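import Mathlib

set_option autoImplicit false
set_option linter.all false

/-! Power graphs of finite groups. -/

namespace Cfsg.Agent.H1.Pw

open Subgroup

variable {G : Type*} [Group G]

/-- adjacency in the power graph -/
def adj (x y : G) : Prop := zpowers x ≤ zpowers y ∨ zpowers y ≤ zpowers x

theorem adj_refl (x : G) : adj x x := Or.inl le_rfl
theorem adj.symm {x y : G} (h : adj x y) : adj y x := Or.symm h
theorem adj_one (x : G) : adj 1 x := Or.inl (by rw [zpowers_one_eq_bot]; exact bot_le)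
theorem adj_congr {x x' : G} (h : zpowers x = zpowers x') (y : G) : adj x y ↔ adj x' y := by
  rw [adj, adj, h]

theorem mem_le {x y : G} (h : zpowers x ≤ zpowers y) : x ∈ zpowers y := h (mem_zpowers x)

theorem ord_dvd {x y : G} (h : zpowers x ≤ zpowers y) : orderOf x ∣ orderOf y := orderOf_dvd_of_mem_zpowers (mem_le h)

theorem coe_le {K : Subgroup G} {a b : K} : zpowers a ≤ zpowers b ↔ zpowers (a : G) ≤ zpowers (b : G) := by
  rw [zpowers_le, zpowers_le, mem_zpowers_iff, mem_zpowers_iff]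
  constructor
  · rintro ⟨k, hk⟩
    exact ⟨k, by rw [← hk]; rfl⟩
  · rintro ⟨k, hk⟩
    exact ⟨k, Subtype.ext hk⟩

theorem dom_aux [Finite G] {v : G} (hv : v ≠ 1) (h : ∀ y, adj v y) : zpowers v = ⊤ ∨ ∃ r, r.Prime ∧ IsPGroup r G := by
  classical
  have ho : orderOf v ≠ 1 := fun h1 => hv (orderOf_eq_one_iff.1 h1)
  obtain ⟨r, hr, hrv⟩ := Nat.exists_prime_and_dvd ho
  haveI : Fact r.Prime := ⟨hr⟩
  by_cases hpow : ∃ k, orderOf v = r ^ k
  · right
    obtain ⟨k, hk⟩ := hpow
    refine ⟨r, hr, ?_⟩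
    have hc : Nat.card G = r ^ (Nat.card G).primeFactorsList.length := by
      apply Nat.eq_prime_pow_of_unique_prime_dvd Nat.card_pos.ne'
      intro s hs hsG
      haveI : Fact s.Prime := ⟨hs⟩
      obtain ⟨y, hy⟩ := exists_prime_orderOf_dvd_card' s hsG
      rcases h y with h1 | h1
      · have h2 := ord_dvd h1
        rw [hy] at h2
        rcases (Nat.dvd_prime hs).1 h2 with h3 | h3
        · exact absurd h3 ho
        · rw [h3] at hrv
          exact ((Nat.prime_dvd_prime_iff_eq hr hs).1 hrv).symm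
      · have h2 := ord_dvd h1
        rw [hy, hk] at h2
        exact (Nat.prime_dvd_prime_iff_eq hs hr).1 (hs.dvd_of_dvd_pow h2)
    exact IsPGroup.of_card hc
  · left
    by_contra hne
    have h1 : (zpowers v).index ≠ 1 := fun h1 => hne (index_eq_one.1 h1)
    obtain ⟨s, hs, hsi⟩ := Nat.exists_prime_and_dvd h1
    haveI : Fact s.Prime := ⟨hs⟩
    obtain ⟨P⟩ : Nonempty (Sylow s G) := inferInstance
    have hle : (P : Subgroup G) ≤ zpowers v := by
      intro y hy
      obtain ⟨b, hb⟩ := (IsPGroup.iff_orderOf.1 P.isPGroup') ⟨y, hy⟩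
      rw [orderOf_mk] at hb
      rcases h y with h2 | h2
      · have h3 := ord_dvd h2
        rw [hb] at h3
        obtain ⟨c, -, hc⟩ := (Nat.dvd_prime_pow hs).1 h3
        exfalso
        apply hpow
        rw [hc] at hrv
        have h4 := (Nat.prime_dvd_prime_iff_eq hr hs).1 (hr.dvd_of_dvd_pow hrv)
        exact ⟨c, by rw [hc, h4]⟩
      · exact mem_le h2
    exact P.not_dvd_index (hsi.trans (index_dvd_of_le hle))

theorem dom [Finite G] {K : Subgroup G} {v : G} (hvK : v ∈ K) (hv : v ≠ 1) (h : ∀ y ∈ K, adj v y) :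
    zpowers v = K ∨ ∃ r, r.Prime ∧ IsPGroup r K := by
  rcases dom_aux (G := K) (v := ⟨v, hvK⟩) (fun h1 => hv (congrArg Subtype.val h1)) (fun y => by
    rcases h y y.2 with h1 | h1
    · exact Or.inl (coe_le.2 h1)
    · exact Or.inr (coe_le.2 h1)) with h1 | h1
  · left
    apply le_antisymm (zpowers_le.2 hvK)
    intro y hy
    have h2 : (⟨y, hy⟩ : K) ∈ zpowers (⟨v, hvK⟩ : K) := by rw [h1]; trivial
    obtain ⟨k, hk⟩ := h2
    exact ⟨k, congrArg Subtype.val hk⟩
  · exact Or.inr h1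

theorem cyc_aux [Finite G] (hP : IsCyclic G) {v x : G} (h : orderOf v ∣ orderOf x) : v ∈ zpowers x := by
  classical
  cases nonempty_fintype G
  have h1 : (zpowers x : Set G).toFinset ⊆ Finset.univ.filter (fun y : G => y ^ orderOf x = 1) := by
    intro y hy
    rw [Set.mem_toFinset] at hy
    obtain ⟨i, rfl⟩ := hy
    rw [Finset.mem_filter]
    refine ⟨Finset.mem_univ _, ?_⟩
    simp only
    rw [← zpow_natCast, ← zpow_mul, mul_comm, zpow_mul, zpow_natCast, pow_orderOf_eq_one, one_zpow]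
  have h2 : (Finset.univ.filter (fun y : G => y ^ orderOf x = 1)).card ≤ orderOf x :=
    IsCyclic.card_pow_eq_one_le (orderOf_pos x)
  have h3 : (zpowers x : Set G).toFinset.card = orderOf x := by
    rw [Set.toFinset_card]
    rw [← Nat.card_eq_fintype_card]
    exact Nat.card_zpowers x
  have h4 := Finset.eq_of_subset_of_card_le h1 (by rw [h3]; exact h2)
  have h5 : v ∈ Finset.univ.filter (fun y : G => y ^ orderOf x = 1) := by
    rw [Finset.mem_filter]
    exact ⟨Finset.mem_univ _, orderOf_dvd_iff_pow_eq_one.mp h⟩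
  rw [← h4, Set.mem_toFinset] at h5
  exact h5

/-- in a cyclic subgroup -/
theorem cyc [Finite G] {x a b : G} (ha : a ∈ zpowers x) (hb : b ∈ zpowers x) (h : orderOf a ∣ orderOf b) : zpowers a ≤ zpowers b := by
  have h1 : (⟨a, ha⟩ : zpowers x) ∈ zpowers (⟨b, hb⟩ : zpowers x) := by
    apply cyc_aux inferInstance
    rw [orderOf_mk, orderOf_mk]; exact h
  exact coe_le.1 (zpowers_le.2 h1)

theorem cyc_eq [Finite G] {x a b : G} (ha : a ∈ zpowers x) (hb : b ∈ zpowers x) (h : orderOf a = orderOf b) : zpowers a = zpowers b :=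
  le_antisymm (cyc ha hb (dvd_of_eq h)) (cyc hb ha (dvd_of_eq h.symm))

theorem eq_of_ord [Finite G] {a b : G} (h : zpowers a ≤ zpowers b) (ho : orderOf a = orderOf b) : zpowers a = zpowers b :=
  cyc_eq (mem_le h) (mem_zpowers b) ho

/-- comparability in cyclic `r`-groups -/
theorem cyc_r [Finite G] {x a b : G} {r k : ℕ} (hr : r.Prime) (hx : orderOf x = r ^ k) (ha : a ∈ zpowers x) (hb : b ∈ zpowers x) : adj a b := by
  have h1 := orderOf_dvd_of_mem_zpowers ha
  have h2 := orderOf_dvd_of_mem_zpowers hb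
  rw [hx] at h1 h2
  obtain ⟨i, -, hi⟩ := (Nat.dvd_prime_pow hr).1 h1
  obtain ⟨j, -, hj⟩ := (Nat.dvd_prime_pow hr).1 h2
  rcases le_total i j with h3 | h3
  · exact Or.inl (cyc ha hb (by rw [hi, hj]; exact pow_dvd_pow r h3))
  · exact Or.inr (cyc hb ha (by rw [hi, hj]; exact pow_dvd_pow r h3))

theorem gen_card [Finite G] (x : G) : Nat.card {y : G // zpowers y = zpowers x} = Nat.totient (orderOf x) := by
  classical
  cases nonempty_fintype G
  have h1 : Nat.card {y : G // zpowers y = zpowers x} = Nat.card {a : zpowers x // orderOf a = orderOf x} := by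
    refine Nat.card_congr ⟨fun y => ⟨⟨y.1, (le_of_eq y.2) (mem_zpowers (y : G))⟩, ?_⟩, fun a => ⟨(a.1 : G), ?_⟩, fun y => rfl, fun a => rfl⟩
    · rw [orderOf_mk, ← Nat.card_zpowers, y.2, Nat.card_zpowers]
    · refine eq_of_ord (zpowers_le.2 a.1.2) ?_
      exact (Subgroup.orderOf_coe a.1).trans a.2
  rw [h1, Nat.card_eq_fintype_card, Fintype.card_subtype]
  have h2 := IsCyclic.card_orderOf_eq_totient (α := zpowers x) (d := orderOf x) (by rw [← Nat.card_eq_fintype_card, Nat.card_zpowers])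
  exact h2

theorem pow_ord [Finite G] (x : G) {m : ℕ} (hm : m ∣ orderOf x) : ∃ a ∈ zpowers x, orderOf a = m :=
  ⟨x ^ (orderOf x / m), Subgroup.npow_mem_zpowers x _, orderOf_pow_orderOf_div (orderOf_pos x).ne' hm⟩

theorem ord_sub_r {x : G} {r k : ℕ} (hr : r.Prime) (h : IsPGroup r (zpowers x)) : ∃ k, orderOf x = r ^ k := by
  haveI : Fact r.Prime := ⟨hr⟩
  obtain ⟨k, hk⟩ := (IsPGroup.iff_orderOf.1 h) ⟨x, mem_zpowers x⟩
  exact ⟨k, by rw [← hk, orderOf_mk]⟩

/-- separation -/
theorem sep [Finite G] {x z : G} {p q : ℕ} (hp : p.Prime) (hq : q.Prime) (hpq : p ≠ q) (hpx : p ∣ orderOf x) (hqx : q ∣ orderOf x)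
    (hz : z ∈ zpowers x) (hz1 : z ≠ 1) (hzx : zpowers z ≠ zpowers x) :
    ∃ s, s.Prime ∧ s ∣ orderOf x ∧ ∀ a ∈ zpowers x, orderOf a = s ^ (orderOf x).factorization s → ¬ adj a z := by
  have hn0 : orderOf x ≠ 0 := (orderOf_pos x).ne'
  have hm0 : orderOf z ≠ 0 := (orderOf_pos z).ne'
  have hmn : orderOf z ∣ orderOf x := orderOf_dvd_of_mem_zpowers hz
  have hne : orderOf z ≠ orderOf x := fun h => hzx (cyc_eq hz (mem_zpowers x) h)
  obtain ⟨r, hr⟩ : ∃ r, (orderOf z).factorization r < (orderOf x).factorization r := by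
    by_contra hcon
    push Not at hcon
    apply hne
    apply Nat.dvd_antisymm hmn
    rw [← Nat.factorization_le_iff_dvd hn0 hm0]
    exact hcon
  have hrp : r.Prime := by
    by_contra h
    rw [Nat.factorization_eq_zero_of_not_prime _ h, Nat.factorization_eq_zero_of_not_prime _ h] at hr
    exact lt_irrefl _ hr
  have hrn : r ∣ orderOf x := Nat.dvd_of_factorization_pos (by omega)
  by_cases hpow : ∃ i, orderOf z = r ^ i
  · obtain ⟨i, hi⟩ := hpow
    obtain ⟨s, hs, hsx, hsr⟩ : ∃ s, s.Prime ∧ s ∣ orderOf x ∧ s ≠ r := by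
      by_cases h : p = r
      · exact ⟨q, hq, hqx, fun h' => hpq (h.trans h'.symm)⟩
      · exact ⟨p, hp, hpx, h⟩
    refine ⟨s, hs, hsx, fun a ha hao hadj => ?_⟩
    have hv : 0 < (orderOf x).factorization s := hs.factorization_pos_of_dvd hn0 hsx
    rcases hadj with h | h
    · have h1 := ord_dvd h
      rw [hao, hi] at h1
      have h2 : s ∣ r ^ i := (dvd_pow_self s hv.ne').trans h1
      exact hsr ((Nat.prime_dvd_prime_iff_eq hs hrp).1 (hs.dvd_of_dvd_pow h2))
    · have h1 := ord_dvd h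
      rw [hao, hi] at h1
      rcases Nat.eq_zero_or_pos i with h2 | h2
      · rw [h2, pow_zero] at hi
        exact hz1 (orderOf_eq_one_iff.1 hi)
      · have h3 : r ∣ s ^ (orderOf x).factorization s := (dvd_pow_self r h2.ne').trans h1
        exact hsr ((Nat.prime_dvd_prime_iff_eq hrp hs).1 (hrp.dvd_of_dvd_pow h3)).symm
  · refine ⟨r, hrp, hrn, fun a ha hao hadj => ?_⟩
    rcases hadj with h | h
    · have h1 := ord_dvd h
      rw [hao] at h1
      have h2 := (hrp.pow_dvd_iff_le_factorization hm0).1 h1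
      omega
    · have h1 := ord_dvd h
      rw [hao] at h1
      obtain ⟨i, -, hi⟩ := (Nat.dvd_prime_pow hrp).1 h1
      exact hpow ⟨i, hi⟩

end Cfsg.Agent.H1.Pw
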