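import Mathlib
import Cfsg.Agent.H1_PwA

set_option autoImplicit false
set_option linter.all false

/-! Power graphs determine the prime graph. -/

namespace Cfsg.Agent.H1.Pw

open Subgroup

section main

variable {G H : Type*} [Group G] [Group H] [Finite G] [Finite H]

theorem main (e : G ≃ H) (he : ∀ x y, adj x y ↔ adj (e x) (e y)) {p q : ℕ} (hp : p.Prime) (hq : q.Prime) (hpq : p ≠ q)
    {g : G} (hg : orderOf g = p * q) : ∃ h : H, orderOf h = p * q := by
  classical
  obtain ⟨x0, hx0, hmax0⟩ := Set.exists_max_image {x : G | g ∈ zpowers x} orderOf (Set.toFinite _) ⟨g, mem_zpowers g⟩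
  obtain ⟨x, hgx, hmax, hu1⟩ : ∃ x, g ∈ zpowers x ∧ (∀ b, g ∈ zpowers b → orderOf b ≤ orderOf x) ∧ e x ≠ 1 := by
    by_cases h : e x0 = 1
    · refine ⟨x0⁻¹, by rw [zpowers_inv]; exact hx0, fun b hb => by rw [orderOf_inv]; exact hmax0 b hb, fun h' => ?_⟩
      have h1 : x0⁻¹ = x0 := e.injective (h'.trans h.symm)
      have h2 : x0 ^ 2 = 1 := by rw [pow_two]; nth_rewrite 1 [← h1]; exact inv_mul_cancel x0
      have h3 := orderOf_dvd_of_pow_eq_one h2
      have h4 : orderOf g ∣ 2 := (orderOf_dvd_of_mem_zpowers hx0).trans h3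
      rw [hg] at h4
      have h5 := Nat.le_of_dvd (by norm_num) h4
      have h6 := Nat.mul_le_mul hp.two_le hq.two_le
      omega
    · exact ⟨x0, hx0, hmax0, h⟩
  have hdx : p * q ∣ orderOf x := hg ▸ orderOf_dvd_of_mem_zpowers hgx
  have hpx : p ∣ orderOf x := (dvd_mul_right p q).trans hdx
  have hqx : q ∣ orderOf x := (dvd_mul_left q p).trans hdx
  have hN : ∀ y, adj x y → y ∈ zpowers x := by
    rintro y (h | h)
    · have h1 : g ∈ zpowers y := h hgx
      have h2 := hmax y h1
      have h3 : zpowers x = zpowers y := Subgroup.eq_of_le_of_card_ge h (by rw [Nat.card_zpowers, Nat.card_zpowers]; exact h2)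
      rw [h3]; exact mem_zpowers y
    · exact mem_le h
  have hN' : ∀ y, y ∈ zpowers x → adj x y := fun y hy => Or.inr (zpowers_le.2 hy)
  have hnr : ∀ (k r : ℕ), r.Prime → orderOf x ≠ r ^ k := by
    intro k r hr h
    rw [h] at hpx hqx
    have h1 := (Nat.prime_dvd_prime_iff_eq hp hr).1 (hp.dvd_of_dvd_pow hpx)
    have h2 := (Nat.prime_dvd_prime_iff_eq hq hr).1 (hq.dvd_of_dvd_pow hqx)
    exact hpq (h1.trans h2.symm)
  have hfin : ∀ v : H, orderOf v = orderOf x → ∃ h : H, orderOf h = p * q := by
    intro v hv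
    obtain ⟨a, -, ha⟩ := pow_ord v (m := p * q) (by rw [hv]; exact hdx)
    exact ⟨a, ha⟩
  by_cases hc : e.symm 1 = 1
  swap
  · have hcd : ∀ y, adj (e.symm 1) y := by
      intro y
      rw [he, e.apply_symm_apply]; exact adj_one _
    rcases dom_aux hc hcd with h1 | ⟨r, hr, h1⟩
    · have h2 : e.symm 1 ∈ zpowers x := hN _ ((hcd x).symm)
      have h3 : zpowers x = ⊤ := by rw [eq_top_iff, ← h1]; exact zpowers_le.2 h2
      have hcard : Nat.card H = orderOf x := by
        rw [← Nat.card_congr e, ← Nat.card_zpowers, h3, card_top]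
      have h4 : ∀ w, adj (e x) w := by
        intro w
        obtain ⟨y, rfl⟩ := e.surjective w
        rw [← he]
        exact hN' y (by rw [h3]; trivial)
      rcases dom_aux hu1 h4 with h5 | ⟨r, hr, h5⟩
      · apply hfin (e x)
        rw [← Nat.card_zpowers, h5, card_top, hcard]
      · exfalso
        haveI : Fact r.Prime := ⟨hr⟩
        obtain ⟨k, hk⟩ := IsPGroup.iff_card.1 h5
        exact hnr k r hr (hcard.symm.trans hk)
    · exfalso
      haveI : Fact r.Prime := ⟨hr⟩
      obtain ⟨k, hk⟩ := ord_sub_r (k := 0) (x := x) hr (h1.to_subgroup _)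
      exact hnr k r hr hk
  have he1 : e 1 = 1 := by
    have h := e.apply_symm_apply 1
    rwa [hc] at h
  have he0 : ∀ {v : H}, v ≠ 1 → e.symm v ≠ 1 := by
    intro v hv h
    exact hv (by rw [← e.apply_symm_apply v, h, he1])
  have htw : ∀ v, v ≠ 1 → adj (e x) v → (∀ w, adj (e x) w → adj v w) → zpowers (e.symm v) = zpowers x := by
    intro v hv hxv hall
    have hm : e.symm v ∈ zpowers x := hN _ (by rw [he, e.apply_symm_apply]; exact hxv)
    rcases dom hm (he0 hv) (fun y hy => by
      rw [he, e.apply_symm_apply]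
      exact hall _ ((he _ _).1 (hN' y hy))) with h1 | ⟨r, hr, h1⟩
    · exact h1
    · exfalso
      obtain ⟨k, hk⟩ := ord_sub_r (k := 0) hr h1
      exact hnr k r hr hk
  have htw' : ∀ v, zpowers (e.symm v) = zpowers x → ∀ w, adj (e x) w ↔ adj v w := by
    intro v hv w
    obtain ⟨y, rfl⟩ := e.surjective w
    rw [← he, ← adj_congr hv, he, e.apply_symm_apply]
  have hne1 : ∀ y', zpowers y' = zpowers x → y' ≠ 1 := by
    rintro y' hy' rfl
    rw [zpowers_one_eq_bot] at hy'
    have h2 : x = 1 := zpowers_eq_bot.1 hy'.symm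
    rw [h2, orderOf_one] at hpx
    exact hp.one_lt.ne' (Nat.dvd_one.1 hpx)
  by_cases hcl : ∀ w, adj (e x) w → w ∈ zpowers (e x)
  · apply hfin (e x)
    rw [← Nat.card_zpowers, ← Nat.card_zpowers]
    exact (Nat.card_congr (e.subtypeEquiv (fun y => ⟨fun h => hcl _ ((he _ _).1 (hN' y h)),
      fun h => hN y ((he _ _).2 (Or.inr (zpowers_le.2 h)))⟩))).symm
  exfalso
  push Not at hcl
  obtain ⟨y0, hy0, hy0'⟩ := hcl
  have hy0u : zpowers (e x) ≤ zpowers y0 := by
    rcases hy0 with h | h
    · exact h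
    · exact absurd (mem_le h) hy0'
  have hy01 : y0 ≠ 1 := fun h => hy0' (by rw [h]; exact one_mem _)
  by_cases hpp : ∃ r k, r.Prime ∧ orderOf (e x) = r ^ k
  swap
  · have hdomin : ∀ w, adj (e x) w → adj y0 w := by
      by_contra hcon
      push Not at hcon
      obtain ⟨w0, hw0, hw0'⟩ := hcon
      obtain ⟨w1, hw1, hw11, hw1g⟩ : ∃ w1 ∈ zpowers (e x), w1 ≠ 1 ∧ zpowers w1 ≠ zpowers (e x) := by
        have ho : orderOf (e x) ≠ 1 := fun h => hu1 (orderOf_eq_one_iff.1 h)
        obtain ⟨r, hr, hrx⟩ := Nat.exists_prime_and_dvd ho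
        obtain ⟨a, ha, hao⟩ := pow_ord (e x) hrx
        refine ⟨a, ha, ?_, fun h => hpp ⟨r, 1, hr, ?_⟩⟩
        · rintro rfl
          rw [orderOf_one] at hao
          exact hr.one_lt.ne hao
        · rw [pow_one, ← Nat.card_zpowers, ← h, Nat.card_zpowers, hao]
      have hadj1 : adj (e x) w1 := Or.inr (zpowers_le.2 hw1)
      have hz1 : e.symm w1 ∈ zpowers x := hN _ (by rw [he, e.apply_symm_apply]; exact hadj1)
      have hz1g : zpowers (e.symm w1) ≠ zpowers x := by
        intro h
        have h1 := htw' _ h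
        rcases dom hw1 hw11 (fun y hy => (h1 y).1 (Or.inr (zpowers_le.2 hy))) with h2 | ⟨r, hr, h2⟩
        · exact hw1g h2
        · obtain ⟨k, hk⟩ := ord_sub_r (k := 0) hr h2
          exact hpp ⟨r, k, hr, hk⟩
      have hz0 : e.symm y0 ∈ zpowers x := hN _ (by rw [he, e.apply_symm_apply]; exact Or.inl hy0u)
      have hz0g : zpowers (e.symm y0) ≠ zpowers x := by
        intro h
        exact hw0' ((htw' _ h w0).1 hw0)
      obtain ⟨s, hs, hsx, hsep⟩ := sep hp hq hpq hpx hqx hz0 (he0 hy01) hz0g
      obtain ⟨t, ht, htx, htep⟩ := sep hp hq hpq hpx hqx hz1 (he0 hw11) hz1g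
      obtain ⟨a, ha, hao⟩ := pow_ord x (m := s ^ (orderOf x).factorization s) (Nat.ordProj_dvd _ _)
      obtain ⟨b, hb, hbo⟩ := pow_ord x (m := t ^ (orderOf x).factorization t) (Nat.ordProj_dvd _ _)
      have hna := hsep a ha hao
      have hnb := htep b hb hbo
      rw [he, e.apply_symm_apply] at hna hnb
      have hxa := (he _ _).1 (hN' a ha)
      have hxb := (he _ _).1 (hN' b hb)
      have h1 : zpowers (e x) ≤ zpowers (e a) := by
        rcases hxa with h | h
        · exact h
        · exact absurd (Or.inl (h.trans hy0u)) hna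
      have h2 : zpowers (e b) ≤ zpowers (e x) := by
        rcases hxb with h | h
        · exact absurd (Or.inr ((zpowers_le.2 hw1).trans h)) hnb
        · exact h
      have h3 : adj b a := by rw [he]; exact Or.inl (h2.trans h1)
      by_cases hst : s = t
      · subst hst
        have h4 : zpowers a = zpowers b := cyc_eq ha hb (hao.trans hbo.symm)
        apply hnb
        have h5 : adj b (e.symm w1) ↔ adj a (e.symm w1) := (adj_congr h4 _).symm
        rw [he, he, e.apply_symm_apply] at h5
        exact h5.2 (Or.inr ((zpowers_le.2 hw1).trans h1))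
      · have hn0 : orderOf x ≠ 0 := (orderOf_pos x).ne'
        have hva := (hs.factorization_pos_of_dvd hn0 hsx).ne'
        have hvb := (ht.factorization_pos_of_dvd hn0 htx).ne'
        rcases h3 with h | h
        · have h4 := ord_dvd h
          rw [hao, hbo] at h4
          exact hst ((Nat.prime_dvd_prime_iff_eq ht hs).1 (ht.dvd_of_dvd_pow ((dvd_pow_self t hvb).trans h4))).symm
        · have h4 := ord_dvd h
          rw [hao, hbo] at h4
          exact hst ((Nat.prime_dvd_prime_iff_eq hs ht).1 (hs.dvd_of_dvd_pow ((dvd_pow_self s hva).trans h4)))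
    have h1 := htw y0 hy01 (Or.inl hy0u) hdomin
    have h2 := htw' y0 h1
    rcases dom (K := zpowers y0) (mem_le hy0u) hu1 (fun w hw => (h2 w).2 (Or.inr (zpowers_le.2 hw))) with h3 | ⟨r, hr, h3⟩
    · exact hy0' (by rw [h3]; exact mem_zpowers y0)
    · obtain ⟨k, hk⟩ := ord_sub_r (k := 0) hr h3
      have h4 := ord_dvd hy0u
      rw [hk] at h4
      obtain ⟨i, -, hi⟩ := (Nat.dvd_prime_pow hr).1 h4
      exact hpp ⟨r, i, hr, hi⟩
  obtain ⟨r, k, hr, hk⟩ := hpp
  haveI : Fact r.Prime := ⟨hr⟩
  have hB : ∀ v, (∀ w, adj (e x) w ↔ adj v w) → (∃ j, orderOf v = r ^ j) → ∀ w ∈ zpowers v, w ≠ 1 →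
      zpowers (e.symm w) = zpowers x := by
    rintro v hv ⟨j, hj⟩ w hw hw1
    apply htw w hw1 ((hv w).2 (Or.inr (zpowers_le.2 hw)))
    intro y hy
    rcases (hv y).1 hy with h | h
    · exact Or.inl ((zpowers_le.2 hw).trans h)
    · exact cyc_r hr hj hw (mem_le h)
  have hk0 : k ≠ 0 := by
    rintro rfl
    rw [pow_zero] at hk
    exact hu1 (orderOf_eq_one_iff.1 hk)
  obtain ⟨w, hw, hwo⟩ := pow_ord (e x) (m := r) (by rw [hk]; exact dvd_pow_self r hk0)
  have hw1 : w ≠ 1 := by
    rintro rfl
    rw [orderOf_one] at hwo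
    exact hr.one_lt.ne hwo
  have hwt := htw' w (hB (e x) (fun _ => Iff.rfl) ⟨k, hk⟩ w hw hw1)
  have hgr : ∀ y, zpowers y = zpowers x → ∃ j, orderOf (e y) = r ^ j := by
    intro y hy
    have h1 := htw' (e y) (by rw [e.symm_apply_apply]; exact hy)
    have h2 : adj w (e y) := (hwt _).1 ((h1 _).2 (adj_refl _))
    rcases h2 with h3 | h3
    · rcases dom (K := zpowers (e y)) (mem_le h3) hw1 (fun z hz => (hwt z).1 ((h1 z).2 (Or.inr (zpowers_le.2 hz)))) with
        h4 | ⟨r', hr', h4⟩
      · exact ⟨1, by rw [← Nat.card_zpowers, ← h4, Nat.card_zpowers, hwo, pow_one]⟩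
      · obtain ⟨j, hj⟩ := ord_sub_r (k := 0) hr' h4
        have h5 := ord_dvd h3
        rw [hwo, hj] at h5
        have h6 := (Nat.prime_dvd_prime_iff_eq hr hr').1 (hr.dvd_of_dvd_pow h5)
        exact ⟨j, by rw [hj, h6]⟩
    · have h5 := ord_dvd h3
      rw [hwo] at h5
      rcases (Nat.dvd_prime hr).1 h5 with h6 | h6
      · exact ⟨0, by rw [h6, pow_zero]⟩
      · exact ⟨1, by rw [h6, pow_one]⟩
  obtain ⟨y, hy, hymax⟩ := Set.exists_max_image {y : G | zpowers y = zpowers x} (fun y => orderOf (e y)) (Set.toFinite _) ⟨x, rfl⟩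
  have hy : zpowers y = zpowers x := hy
  obtain ⟨l, hl⟩ := hgr y hy
  have hyt := htw' (e y) (by rw [e.symm_apply_apply]; exact hy)
  have hgen : ∀ z, z ≠ 1 → (z ∈ zpowers (e y) ↔ zpowers (e.symm z) = zpowers x) := by
    intro z hz
    constructor
    · intro h
      exact hB (e y) hyt ⟨l, hl⟩ z h hz
    · intro h
      have h1 := htw' z h
      have h2 : adj (e y) z := (hyt z).1 ((h1 z).2 (adj_refl z))
      rcases h2 with h3 | h3
      · have h4 : orderOf (e (e.symm z)) ≤ orderOf (e y) := hymax (e.symm z) h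
        rw [e.apply_symm_apply] at h4
        have h5 : zpowers (e y) = zpowers z := Subgroup.eq_of_le_of_card_ge h3 (by rw [Nat.card_zpowers, Nat.card_zpowers]; exact h4)
        rw [h5]; exact mem_zpowers z
      · exact mem_le h3
  have h1img : (1 : H) ∉ e '' {y : G | zpowers y = zpowers x} := by
    rintro ⟨y', hy', h⟩
    exact hne1 y' hy' (e.injective (h.trans he1.symm))
  have hset : ((zpowers (e y) : Subgroup H) : Set H) = insert 1 (e '' {y : G | zpowers y = zpowers x}) := by
    ext z
    rw [Set.mem_insert_iff, SetLike.mem_coe]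
    by_cases hz : z = 1
    · rw [hz]; exact ⟨fun _ => Or.inl rfl, fun _ => one_mem _⟩
    · rw [hgen z hz]
      constructor
      · intro h
        exact Or.inr ⟨e.symm z, h, e.apply_symm_apply z⟩
      · rintro (h | ⟨y', hy', rfl⟩)
        · exact absurd h hz
        · rw [e.symm_apply_apply]; exact hy'
  have hcount : Nat.totient (orderOf x) + 1 = r ^ l := by
    have h1 : Nat.card (zpowers (e y)) = ((zpowers (e y) : Subgroup H) : Set H).ncard := Nat.card_coe_set_eq _
    have h2 : Nat.card {y : G // zpowers y = zpowers x} = {y : G | zpowers y = zpowers x}.ncard := Nat.card_coe_set_eq _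
    rw [← gen_card x, ← hl, ← Nat.card_zpowers, h1, hset, Set.ncard_insert_of_notMem h1img (Set.toFinite _),
      Set.ncard_image_of_injective _ e.injective, h2]
  have hdiv : ∀ s t, s.Prime → t.Prime → s ≠ t → s ∣ orderOf x → t ∣ orderOf x → s * t ∣ orderOf x → Nat.totient (r ^ l) ∣ s - 1 := by
    intro s t hs ht hst hsx htx hstx
    obtain ⟨a, ha, hao⟩ := pow_ord x hsx
    have ha1 : a ≠ 1 := by
      rintro rfl
      rw [orderOf_one] at hao
      exact hs.one_lt.ne hao
    let F : Finset H := (Set.toFinite (e '' {b : G | zpowers b = zpowers a})).toFinset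
    have hmem : ∀ A, A ∈ F ↔ zpowers (e.symm A) = zpowers a := by
      intro A
      rw [Set.Finite.mem_toFinset]
      constructor
      · rintro ⟨b, hb, rfl⟩
        rw [e.symm_apply_apply]; exact hb
      · intro h
        exact ⟨e.symm A, h, e.apply_symm_apply A⟩
    have hFcard : F.card = s - 1 := by
      have h2 : Nat.card {b : G // zpowers b = zpowers a} = {b : G | zpowers b = zpowers a}.ncard := Nat.card_coe_set_eq _
      rw [← Set.ncard_eq_toFinset_card, Set.ncard_image_of_injective _ e.injective, ← h2, gen_card a, hao, Nat.totient_prime hs]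
    have hA1 : ∀ A ∈ F, A ≠ 1 := by
      rintro A hA rfl
      rw [hmem, hc, zpowers_one_eq_bot] at hA
      exact ha1 (zpowers_eq_bot.1 hA.symm)
    have hAx : ∀ A ∈ F, e.symm A ∈ zpowers x := by
      intro A hA
      rw [hmem] at hA
      exact (zpowers_le.2 ha) (by rw [← hA]; exact mem_zpowers _)
    have hAo : ∀ A ∈ F, orderOf (e.symm A) = s := by
      intro A hA
      rw [hmem] at hA
      rw [← Nat.card_zpowers, hA, Nat.card_zpowers, hao]
    have hclos : ∀ A ∈ F, ∀ B, zpowers B = zpowers A → B ∈ F := by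
      intro A hA B hBA
      have htwin : ∀ z, adj (e.symm A) z ↔ adj (e.symm B) z := by
        intro z
        rw [he, he, e.apply_symm_apply, e.apply_symm_apply]
        exact (adj_congr hBA _).symm
      have hbx : e.symm B ∈ zpowers x := hN _ ((htwin x).1 (hN' _ (hAx A hA)).symm).symm
      have hB1 : B ≠ 1 := by
        rintro rfl
        rw [zpowers_one_eq_bot] at hBA
        exact hA1 A hA (zpowers_eq_bot.1 hBA.symm)
      have hb1 : orderOf (e.symm B) ≠ 1 := fun h => he0 hB1 (orderOf_eq_one_iff.1 h)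
      have hab : adj (e.symm A) (e.symm B) := (htwin _).2 (adj_refl _)
      have hgoal : zpowers (e.symm A) = zpowers (e.symm B) := by
        rcases hab with h | h
        · obtain ⟨d, hd, hdo⟩ := pow_ord x hstx
          obtain ⟨c, hcx, hco⟩ := pow_ord x htx
          have h1 : zpowers (e.symm A) ≤ zpowers d := cyc (hAx A hA) hd (by rw [hAo A hA, hdo]; exact dvd_mul_right _ _)
          have h2 : zpowers c ≤ zpowers d := cyc hcx hd (by rw [hco, hdo]; exact dvd_mul_left _ _)
          have hnot : ¬ zpowers c ≤ zpowers (e.symm B) := by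
            intro h3
            rcases (htwin c).2 (Or.inr h3) with h4 | h4
            · have h5 := ord_dvd h4
              rw [hAo A hA, hco] at h5
              exact hst ((Nat.prime_dvd_prime_iff_eq hs ht).1 h5)
            · have h5 := ord_dvd h4
              rw [hAo A hA, hco] at h5
              exact hst ((Nat.prime_dvd_prime_iff_eq ht hs).1 h5).symm
          rcases (htwin d).1 (Or.inl h1) with h3 | h3
          · have h4 := ord_dvd h
            have h5 := ord_dvd h3
            rw [hAo A hA] at h4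
            rw [hdo] at h5
            obtain ⟨m, hm⟩ := h4
            rw [hm] at h5
            have h6 := Nat.dvd_of_mul_dvd_mul_left hs.pos h5
            rcases (Nat.dvd_prime ht).1 h6 with h7 | h7
            · exact eq_of_ord h (by rw [hAo A hA, hm, h7, mul_one])
            · exfalso
              apply hnot
              rw [eq_of_ord h3 (by rw [hm, h7, hdo])]
              exact h2
          · exact absurd (h2.trans h3) hnot
        · have h4 := ord_dvd h
          rw [hAo A hA] at h4
          rcases (Nat.dvd_prime hs).1 h4 with h5 | h5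
          · exact absurd h5 hb1
          · exact (eq_of_ord h (by rw [h5, hAo A hA])).symm
      rw [hmem, ← hgoal]
      exact (hmem A).1 hA
    have hord : ∀ A ∈ F, r ^ l ∣ orderOf A := by
      intro A hA
      have h1 : adj (e x) A := by
        have := (he _ _).1 (hN' _ (hAx A hA))
        rwa [e.apply_symm_apply] at this
      rcases (hyt A).1 h1 with h2 | h2
      · rw [← hl]; exact ord_dvd h2
      · exfalso
        have h3 := (hgen A (hA1 A hA)).1 (mem_le h2)
        have h4 : orderOf x = s := by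
          rw [← Nat.card_zpowers, ← h3, Nat.card_zpowers, hAo A hA]
        rw [h4] at htx
        exact hst ((Nat.prime_dvd_prime_iff_eq ht hs).1 htx).symm
    rw [← hFcard, Finset.card_eq_sum_card_image (fun A : H => zpowers A) F]
    apply Finset.dvd_sum
    intro K hK
    obtain ⟨A, hA, rfl⟩ := Finset.mem_image.1 hK
    have h1 : (F.filter (fun B => zpowers B = zpowers A)).card = Nat.totient (orderOf A) := by
      rw [← gen_card A]
      symm
      apply Nat.subtype_card
      intro B
      rw [Finset.mem_filter]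
      exact ⟨fun h => h.2, fun h => ⟨hclos A hA B h, h⟩⟩
    rw [h1]
    exact Nat.totient_dvd_of_dvd (hord A hA)
  have h1 := hdiv p q hp hq hpq hpx hqx hdx
  have h2 := hdiv q p hq hp hpq.symm hqx hpx (by rw [mul_comm]; exact hdx)
  have h3 : (p - 1) * (q - 1) ∣ Nat.totient (orderOf x) := by
    have : Nat.totient (p * q) ∣ Nat.totient (orderOf x) := Nat.totient_dvd_of_dvd hdx
    rwa [Nat.totient_mul ((Nat.coprime_primes hp hq).2 hpq), Nat.totient_prime hp, Nat.totient_prime hq] at this
  have h4 : Nat.totient (r ^ l) * Nat.totient (r ^ l) ∣ r ^ l - 1 := by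
    have h5 : Nat.totient (orderOf x) = r ^ l - 1 := by omega
    rw [← h5]; exact (mul_dvd_mul h1 h2).trans h3
  have hl0 : l ≠ 0 := by
    rintro rfl
    rw [pow_zero] at hl
    have h5 : e y = 1 := orderOf_eq_one_iff.1 hl
    exact hne1 y hy (e.injective (h5.trans he1.symm))
  obtain ⟨l', rfl⟩ : ∃ l', l = l' + 1 := ⟨l - 1, by omega⟩
  rw [Nat.totient_prime_pow_succ hr] at h4
  have h5 : l' = 0 := by
    by_contra h
    have h6 : r ∣ r ^ (l' + 1) - 1 := ((dvd_pow_self r h).trans (dvd_mul_right _ _)).trans ((dvd_mul_right _ _).trans h4)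
    have h7 : r ∣ r ^ (l' + 1) := dvd_pow_self r (by omega)
    have h8 : r ∣ 1 := (Nat.dvd_add_right h6).1 (by rw [Nat.sub_add_cancel (Nat.one_le_pow _ _ hr.pos)]; exact h7)
    exact hr.one_lt.ne' (Nat.dvd_one.1 h8)
  subst h5
  rw [pow_zero, one_mul, zero_add, pow_one] at h4
  have hr2 := hr.two_le
  have h10 : (r - 1) * (r - 1) ≤ r - 1 := Nat.le_of_dvd (by omega) h4
  have h11 : r - 1 ≤ 1 := by
    by_contra h
    have h12 : 2 ≤ r - 1 := by omega
    have := Nat.mul_le_mul_right (r - 1) h12
    omega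
  have h12 : r = 2 := by omega
  rw [h12] at hcount
  norm_num at hcount
  have h13 : Nat.totient (orderOf x) = 1 := by omega
  rw [h13, Nat.dvd_one, mul_eq_one] at h3
  have := hp.two_le
  have := hq.two_le
  omega

end main

end Cfsg.Agent.H1.Pw
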