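import Mathlib
import Cfsg.Agent.H1_RkG

set_option autoImplicit false
set_option linter.all false

/-! Groups of automorphisms preserving a chain with cyclic steps. -/

namespace Cfsg.Agent.H1.Sup

open Cfsg Cfsg.Agent.H1.Rk

section chain

variable {Y : Type*} [Group Y] {p : ℕ} [hp : Fact p.Prime]

/-- a chain of normal subgroups with cyclic steps, invariant under `A` -/
structure CC (A : Subgroup (MulAut Y)) (m : ℕ) (B : ℕ → Subgroup Y) (y : ℕ → Y) : Prop where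
  bot : B 0 = ⊥
  top : B m = ⊤
  nrm : ∀ i, (B i).Normal
  inv : ∀ a ∈ A, ∀ i, ∀ x ∈ B i, a x ∈ B i
  step : ∀ i < m, B (i + 1) = B i ⊔ Subgroup.zpowers (y i)

variable {A : Subgroup (MulAut Y)} {m : ℕ} {B : ℕ → Subgroup Y} {y : ℕ → Y}

theorem CC.dec [Finite Y] (h : CC A m B y) {i : ℕ} (hi : i < m) {z : Y} (hz : z ∈ B (i + 1)) :
    ∃ d ∈ B i, ∃ k : ℕ, z = d * y i ^ k := by
  haveI := h.nrm i
  rw [h.step i hi] at hz
  obtain ⟨d, hd, v, hv, rfl⟩ := (Cfsg.Agent.H22.Basic.mem_sup_of_le_normalizer (by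
    rw [Subgroup.normalizer_eq_top_iff.2 (h.nrm i)]; exact le_top)).1 hz
  obtain ⟨k, rfl⟩ := exists_nat hv
  exact ⟨d, hd, k, rfl⟩

theorem CC.y_mem (h : CC A m B y) {i : ℕ} (hi : i < m) : y i ∈ B (i + 1) := by
  rw [h.step i hi]
  exact Subgroup.mem_sup_right (Subgroup.mem_zpowers _)

theorem CC.le (h : CC A m B y) {i : ℕ} (hi : i < m) : B i ≤ B (i + 1) := by
  rw [h.step i hi]
  exact le_sup_left

/-- congruence modulo `B i` -/
theorem CC.map_cong (h : CC A m B y) {a : MulAut Y} (ha : a ∈ A) {i : ℕ} {u v : Y} (huv : u⁻¹ * v ∈ B i) :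
    (a u)⁻¹ * a v ∈ B i := by
  have := h.inv a ha i _ huv
  rwa [map_mul, map_inv] at this

/-- two automorphisms agreeing on the generator agree on the step -/
theorem CC.cong [Finite Y] (h : CC A m B y) {a b : MulAut Y} (ha : a ∈ A) (hb : b ∈ A) {i : ℕ} (hi : i < m)
    (hab : (a (y i))⁻¹ * b (y i) ∈ B i) {z : Y} (hz : z ∈ B (i + 1)) : (a z)⁻¹ * b z ∈ B i := by
  haveI := h.nrm i
  obtain ⟨d, hd, k, rfl⟩ := h.dec hi hz
  rw [← QuotientGroup.eq] at hab ⊢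
  have h1 := h.inv a ha i d hd
  have h2 := h.inv b hb i d hd
  rw [map_mul, map_mul, map_pow, map_pow, QuotientGroup.mk_mul, QuotientGroup.mk_mul, QuotientGroup.mk_pow, QuotientGroup.mk_pow,
    hab, (QuotientGroup.eq_one_iff _).2 h1, (QuotientGroup.eq_one_iff _).2 h2]

theorem CC.exists_n [Finite Y] (h : CC A m B y) {a : MulAut Y} (ha : a ∈ A) {i : ℕ} (hi : i < m) :
    ∃ n : ℕ, (a (y i))⁻¹ * y i ^ n ∈ B i := by
  haveI := h.nrm i
  obtain ⟨d, hd, k, hk⟩ := h.dec hi (h.inv a ha _ _ (h.y_mem hi))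
  refine ⟨k, ?_⟩
  rw [← QuotientGroup.eq, hk, QuotientGroup.mk_mul, (QuotientGroup.eq_one_iff _).2 hd, one_mul]

theorem CC.mul_n (h : CC A m B y) {a b : MulAut Y} (ha : a ∈ A) (hb : b ∈ A) {i n k : ℕ}
    (hn : (a (y i))⁻¹ * y i ^ n ∈ B i) (hk : (b (y i))⁻¹ * y i ^ k ∈ B i) :
    ((a * b) (y i))⁻¹ * y i ^ (n * k) ∈ B i := by
  haveI := h.nrm i
  have h1 := h.map_cong ha hk
  rw [← QuotientGroup.eq] at hn h1 ⊢
  rw [MulAut.mul_apply, h1, map_pow, QuotientGroup.mk_pow, hn, ← QuotientGroup.mk_pow, ← pow_mul]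

theorem CC.pow_n (h : CC A m B y) {a : MulAut Y} (ha : a ∈ A) {i n : ℕ}
    (hn : (a (y i))⁻¹ * y i ^ n ∈ B i) (k : ℕ) :
    ((a ^ k) (y i))⁻¹ * y i ^ (n ^ k) ∈ B i := by
  induction k with
  | zero =>
    rw [pow_zero, pow_zero, MulAut.one_apply, pow_one, inv_mul_cancel]
    exact (B i).one_mem
  | succ k ih =>
    rw [pow_succ, pow_succ]
    exact h.mul_n (A.pow_mem ha k) ha ih hn

/-- the stabiliser of the chain -/
def stab (h : CC A m B y) : Subgroup A where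
  carrier := {a | ∀ i < m, ∀ z ∈ B (i + 1), z⁻¹ * (a : MulAut Y) z ∈ B i}
  one_mem' := by
    intro i _ z _
    show z⁻¹ * z ∈ B i
    rw [inv_mul_cancel]; exact (B i).one_mem
  mul_mem' := by
    intro a b ha hb i hi z hz
    have h1 := hb i hi z hz
    have h2 := ha i hi _ (h.inv b b.2 _ z hz)
    have h3 := (B i).mul_mem h1 h2
    have e : z⁻¹ * (b : MulAut Y) z * (((b : MulAut Y) z)⁻¹ * (a : MulAut Y) ((b : MulAut Y) z)) =
      z⁻¹ * (a : MulAut Y) ((b : MulAut Y) z) := by group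
    rw [e] at h3
    exact h3
  inv_mem' := by
    intro a ha i hi z hz
    have h1 := ha i hi _ (h.inv _ (a⁻¹).2 _ z hz)
    have e : (a : MulAut Y) (((a⁻¹ : A) : MulAut Y) z) = z := MulAut.apply_inv_self _ _ _
    rw [e] at h1
    have h2 := (B i).inv_mem h1
    have e2 : ((((a⁻¹ : A) : MulAut Y) z)⁻¹ * z)⁻¹ = z⁻¹ * ((a⁻¹ : A) : MulAut Y) z := by group
    rwa [e2] at h2

theorem mem_stab (h : CC A m B y) {a : A} : a ∈ stab h ↔ ∀ i < m, ∀ z ∈ B (i + 1), z⁻¹ * (a : MulAut Y) z ∈ B i := Iff.rfl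

theorem stab_pp [Finite Y] (hY : IsPGroup p Y) (h : CC A m B y) {a : A} (ha : a ∈ stab h) : ∃ k : ℕ, a ^ (p ^ k) = 1 := by
  obtain ⟨N, hN⟩ := IsPGroup.iff_card.1 hY
  have hNp : ∀ u : Y, u ^ (p ^ N) = 1 := fun u => by rw [← hN]; exact pow_card_eq_one'
  have key : ∀ i ≤ m, ∃ k : ℕ, ∀ z ∈ B i, ((a ^ (p ^ k) : A) : MulAut Y) z = z := by
    intro i
    induction i with
    | zero =>
      intro _
      refine ⟨0, fun z hz => ?_⟩
      rw [h.bot, Subgroup.mem_bot] at hz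
      rw [hz, map_one]
    | succ i ih =>
      intro hi
      obtain ⟨k, hk⟩ := ih (by omega)
      set b := a ^ (p ^ k) with hb
      have hbD : b ∈ stab h := (stab h).pow_mem ha _
      refine ⟨k + N, fun z hz => ?_⟩
      have h1 := hbD i (by omega) z hz
      have h2 := hk _ h1
      have h3 : ∀ n : ℕ, ((b ^ n : A) : MulAut Y) z = z * (z⁻¹ * (b : MulAut Y) z) ^ n := by
        intro n
        induction n with
        | zero => simp
        | succ n ihn =>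
          rw [pow_succ']
          show (b : MulAut Y) (((b ^ n : A) : MulAut Y) z) = _
          rw [ihn, map_mul, map_pow, h2, pow_succ' (z⁻¹ * (b : MulAut Y) z), ← mul_assoc, mul_inv_cancel_left]
      have h4 : a ^ (p ^ (k + N)) = b ^ (p ^ N) := by rw [hb, ← pow_mul, ← pow_add]
      rw [h4, h3, hNp, mul_one]
  obtain ⟨k, hk⟩ := key m le_rfl
  refine ⟨k, Subtype.ext ?_⟩
  ext z
  exact hk z (by rw [h.top]; trivial)

theorem comm_mem [Finite Y] (h : CC A m B y) (a b : A) : a * b * a⁻¹ * b⁻¹ ∈ stab h := by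
  intro i hi z hz
  set w := (((b * a)⁻¹ : A) : MulAut Y) z with hw
  have hwB : w ∈ B (i + 1) := h.inv _ ((b * a)⁻¹).2 _ z hz
  have e1 : z = ((b * a : A) : MulAut Y) w := (MulAut.apply_inv_self _ ((b * a : A) : MulAut Y) z).symm
  have e2 : ((a * b * a⁻¹ * b⁻¹ : A) : MulAut Y) z = ((a * b : A) : MulAut Y) w := by
    rw [hw]
    have e3 : a * b * a⁻¹ * b⁻¹ = a * b * (b * a)⁻¹ := by group
    rw [e3]; rfl
  rw [e2]
  nth_rewrite 1 [e1]
  refine h.cong (b * a).2 (a * b).2 hi ?_ hwB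
  obtain ⟨n, hn⟩ := h.exists_n a.2 hi
  obtain ⟨k, hk⟩ := h.exists_n b.2 hi
  haveI := h.nrm i
  have h1 := h.mul_n a.2 b.2 hn hk
  have h2 := h.mul_n b.2 a.2 hk hn
  rw [← QuotientGroup.eq] at h1 h2 ⊢
  rw [mul_comm] at h2
  exact h2.trans h1.symm

theorem pow_mem_stab [Finite Y] (hY : IsPGroup p Y) (h : CC A m B y) (a : A) : ∃ k : ℕ, (a ^ (p - 1)) ^ (p ^ k) ∈ stab h := by
  obtain ⟨N, hN⟩ := IsPGroup.iff_card.1 hY
  have hNp : ∀ u : Y, u ^ (p ^ (N + 1)) = 1 := fun u => by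
    rw [pow_succ, pow_mul, ← hN, pow_card_eq_one', one_pow]
  refine ⟨N, fun i hi z hz => ?_⟩
  haveI := h.nrm i
  by_cases hyi : y i ∈ B i
  · have h1 : B (i + 1) = B i := by
      rw [h.step i hi]
      exact sup_eq_left.2 (Subgroup.zpowers_le.2 hyi)
    rw [h1] at hz
    exact (B i).mul_mem ((B i).inv_mem hz) (h.inv _ (SetLike.coe_mem _) i z hz)
  obtain ⟨n, hn⟩ := h.exists_n a.2 hi
  -- `p` does not divide `n`
  have hpn : ¬ p ∣ n := by
    intro hpn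
    haveI : Finite A := inferInstance
    have h1 := h.pow_n a.2 hn (orderOf a)
    have h2 : ((a : MulAut Y) ^ orderOf a) = 1 := by
      have := congrArg Subtype.val (pow_orderOf_eq_one a)
      exact this
    have hr : 0 < orderOf a := orderOf_pos a
    rw [h2, MulAut.one_apply] at h1
    -- `y i` is a power of `y i ^ (n ^ r)`-coset
    apply hyi
    have h3 : (QuotientGroup.mk (y i) : Y ⧸ B i) = (QuotientGroup.mk (y i)) ^ (n ^ orderOf a) := by
      rw [← QuotientGroup.mk_pow]; exact QuotientGroup.eq.2 h1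
    have h4 : p ^ (N + 1) ∣ (n ^ orderOf a) ^ (N + 1) :=
      pow_dvd_pow_of_dvd (dvd_pow hpn hr.ne') _
    have h5 : ∀ j : ℕ, (QuotientGroup.mk (y i) : Y ⧸ B i) = (QuotientGroup.mk (y i)) ^ ((n ^ orderOf a) ^ j) := by
      intro j
      induction j with
      | zero => rw [pow_zero, pow_one]
      | succ j ih =>
        rw [pow_succ, pow_mul, ← ih]; exact h3
    rw [← QuotientGroup.eq_one_iff, h5 (N + 1)]
    obtain ⟨c, hc⟩ := h4
    rw [hc, pow_mul, ← QuotientGroup.mk_pow, hNp]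
    rw [QuotientGroup.mk_one, one_pow]
  have h1 := h.pow_n a.2 hn ((p - 1) * p ^ N)
  have h2 : n ^ ((p - 1) * p ^ N) ≡ 1 [MOD p ^ (N + 1)] := by
    have h3 : Nat.Coprime n (p ^ (N + 1)) := Nat.Coprime.pow_right _ ((Nat.Prime.coprime_iff_not_dvd hp.out).2 hpn).symm
    have h4 := Nat.ModEq.pow_totient h3
    rwa [Nat.totient_prime_pow hp.out (Nat.succ_pos N), Nat.succ_sub_one, mul_comm] at h4
  have h3 : y i ^ (n ^ ((p - 1) * p ^ N)) = y i := by
    have h4 : orderOf (y i) ∣ p ^ (N + 1) := orderOf_dvd_of_pow_eq_one (hNp _)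
    conv_rhs => rw [← pow_one (y i)]
    exact pow_eq_pow_iff_modEq.2 (h2.of_dvd h4)
  rw [h3] at h1
  rw [← pow_mul]
  have h4 : ((1 : MulAut Y) (y i))⁻¹ * ((a ^ ((p - 1) * p ^ N) : A) : MulAut Y) (y i) ∈ B i := by
    have h5 := (B i).inv_mem h1
    rw [mul_inv_rev, inv_inv] at h5
    exact h5
  exact h.cong A.one_mem (SetLike.coe_mem _) hi h4 hz

/-- a group of order prime to `p` is abelian of exponent dividing `p - 1` -/
theorem coprime_case [Finite Y] (hY : IsPGroup p Y) (h : CC A m B y) (hA : (Nat.card A).Coprime p) :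
    IsMulCommutative A ∧ ∀ a ∈ A, a ^ (p - 1) = 1 := by
  haveI : Finite A := inferInstance
  have key : ∀ a : A, (∃ k : ℕ, a ^ (p ^ k) = 1) → a = 1 := by
    rintro a ⟨k, hk⟩
    have h1 : orderOf a ∣ p ^ k := orderOf_dvd_of_pow_eq_one hk
    have h2 : orderOf a ∣ Nat.card A := orderOf_dvd_natCard a
    have h3 : Nat.Coprime (Nat.card A) (p ^ k) := Nat.Coprime.pow_right k hA
    exact orderOf_eq_one_iff.1 (Nat.Coprime.eq_one_of_dvd (Nat.Coprime.coprime_dvd_left h2 h3) h1)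
  refine ⟨⟨⟨fun a b => ?_⟩⟩, fun a ha => ?_⟩
  · have h1 := key _ (stab_pp hY h (comm_mem h a b))
    have h2 : a * b * a⁻¹ = b := mul_inv_eq_one.1 h1
    exact mul_inv_eq_iff_eq_mul.1 h2
  · obtain ⟨k, hk⟩ := pow_mem_stab hY h ⟨a, ha⟩
    obtain ⟨l, hl⟩ := stab_pp hY h hk
    have h1 := key ((⟨a, ha⟩ : A) ^ (p - 1)) ⟨k + l, by rw [pow_add, pow_mul]; exact hl⟩
    exact congrArg Subtype.val h1

theorem normal_K [Finite Y] (hY : IsPGroup p Y) (h : CC A m B y) : ∃ K : Subgroup A, K.Normal ∧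
    (∀ a ∈ K, ∃ k : ℕ, a ^ (p ^ k) = 1) ∧ ∀ a : A, (∃ k : ℕ, a ^ (p ^ k) = 1) → a ∈ K := by
  have hDn : (stab h).Normal := by
    refine ⟨fun a ha g => ?_⟩
    have h1 := (stab h).mul_mem (comm_mem h g a) ha
    have e : g * a * g⁻¹ * a⁻¹ * a = g * a * g⁻¹ := by group
    rwa [e] at h1
  have hc : ∀ u v : A ⧸ stab h, Commute u v := by
    intro u v
    obtain ⟨a, rfl⟩ := QuotientGroup.mk_surjective u
    obtain ⟨b, rfl⟩ := QuotientGroup.mk_surjective v
    have h1 := (QuotientGroup.eq_one_iff _).2 (comm_mem h a b)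
    rw [QuotientGroup.mk_mul, QuotientGroup.mk_mul, QuotientGroup.mk_mul, QuotientGroup.mk_inv, QuotientGroup.mk_inv] at h1
    exact mul_inv_eq_iff_eq_mul.1 (mul_inv_eq_one.1 h1)
  have hmk : ∀ (a : A) (k : ℕ), (QuotientGroup.mk a : A ⧸ stab h) ^ k = 1 ↔ a ^ k ∈ stab h := by
    intro a k
    rw [← QuotientGroup.mk_pow, QuotientGroup.eq_one_iff]
  let K : Subgroup A :=
    { carrier := {a | ∃ k : ℕ, (QuotientGroup.mk a : A ⧸ stab h) ^ (p ^ k) = 1}
      one_mem' := ⟨0, one_pow _⟩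
      mul_mem' := by
        rintro a b ⟨k, hk⟩ ⟨l, hl⟩
        refine ⟨k + l, ?_⟩
        rw [QuotientGroup.mk_mul, (hc _ _).mul_pow, pow_add, pow_mul, hk, one_pow, one_mul, mul_comm, pow_mul, hl, one_pow]
      inv_mem' := by
        rintro a ⟨k, hk⟩
        exact ⟨k, by rw [QuotientGroup.mk_inv, inv_pow, hk, inv_one]⟩ }
  refine ⟨K, ⟨?_⟩, ?_, ?_⟩
  · rintro a ⟨k, hk⟩ g
    refine ⟨k, ?_⟩
    have e : (QuotientGroup.mk (g * a * g⁻¹) : A ⧸ stab h) = QuotientGroup.mk a := by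
      rw [QuotientGroup.mk_mul, QuotientGroup.mk_mul, QuotientGroup.mk_inv,
        (hc (QuotientGroup.mk g) (QuotientGroup.mk a)).eq, mul_inv_cancel_right]
    rw [e]; exact hk
  · rintro a ⟨k, hk⟩
    obtain ⟨l, hl⟩ := stab_pp hY h ((hmk a _).1 hk)
    exact ⟨k + l, by rw [pow_add, pow_mul]; exact hl⟩
  · rintro a ⟨k, hk⟩
    exact ⟨k, by rw [hmk, hk]; exact (stab h).one_mem⟩

end chain

end Cfsg.Agent.H1.Sup
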