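import Mathlib
import Cfsg.Agent.H1_SupA
import Cfsg.Agent.H27_FusIso
import Cfsg.Agent.H27_FusReal

set_option autoImplicit false
set_option linter.all false

/-! Supersoluble fusion systems. -/

namespace Cfsg.Agent.H1.Sup

open Cfsg Cfsg.FusionSystem Cfsg.Agent.H27.Fus Cfsg.Agent.H27.Grp Cfsg.Agent.H1.FusA Cfsg.Agent.H1.Rk

variable {Ω : Type*} [Group Ω] {S : Subgroup Ω}

/-- a strongly closed chain with cyclic steps -/
def SS (F : FusionSystem S) : Prop :=
  ∃ (m : ℕ) (c : Fin (m + 1) → Subgroup Ω), c 0 = ⊥ ∧ c (Fin.last m) = S ∧ (∀ i : Fin (m + 1), F.StronglyClosed (c i)) ∧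
    ∀ i : Fin m, c i.castSucc ≤ c i.succ ∧ ∃ x ∈ S, c i.succ = c i.castSucc ⊔ Subgroup.zpowers x

theorem strongly_top (F : FusionSystem S) : F.StronglyClosed S := by
  rw [stronglyClosed_iff]
  exact ⟨le_rfl, fun P f hf x hx _ => hf.mem hx⟩

theorem ss_nat {F : FusionSystem S} (h : SS F) : ∃ (m : ℕ) (c : ℕ → Subgroup Ω) (x : ℕ → Ω), c 0 = ⊥ ∧ c m = S ∧
    (∀ i, F.StronglyClosed (c i)) ∧ ∀ i < m, x i ∈ S ∧ c (i + 1) = c i ⊔ Subgroup.zpowers (x i) := by
  classical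
  obtain ⟨m, c, h0, h1, h2, h3⟩ := h
  choose h3 x hx hx' using h3
  refine ⟨m, fun i => if hi : i < m + 1 then c ⟨i, hi⟩ else S, fun i => if hi : i < m then x ⟨i, hi⟩ else 1, ?_, ?_, ?_, ?_⟩
  · exact (dif_pos (Nat.succ_pos m)).trans h0
  · exact (dif_pos (Nat.lt_succ_self m)).trans h1
  · intro i
    by_cases hi : i < m + 1
    · simp only [dif_pos hi]; exact h2 _
    · simp only [dif_neg hi]; exact strongly_top F
  · intro i hi
    simp only [dif_pos hi, dif_pos (show i < m + 1 by omega), dif_pos (show i + 1 < m + 1 by omega)]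
    exact ⟨hx ⟨i, hi⟩, hx' ⟨i, hi⟩⟩

theorem ss_of_nat {F : FusionSystem S} {m : ℕ} {c : ℕ → Subgroup Ω} {x : ℕ → Ω} (h0 : c 0 = ⊥) (h1 : c m = S)
    (h2 : ∀ i, F.StronglyClosed (c i)) (h3 : ∀ i < m, x i ∈ S ∧ c (i + 1) = c i ⊔ Subgroup.zpowers (x i)) : SS F := by
  refine ⟨m, fun i => c i, h0, h1, fun i => h2 i, fun i => ?_⟩
  have h4 := h3 i i.2
  refine ⟨?_, x i, h4.1, ?_⟩
  · show c (i : ℕ) ≤ c ((i : ℕ) + 1)
    rw [h4.2]; exact le_sup_left
  · exact h4.2

theorem conj_mem_of_strong {F : FusionSystem S} {T : Subgroup Ω} (hT : F.StronglyClosed T) {s x : Ω} (hs : s ∈ S) (hx : x ∈ T) :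
    s * x * s⁻¹ ∈ T := by
  rw [stronglyClosed_iff] at hT
  exact hT.2 T _ (map_conj F hT.1 hs) x hx hx

/-- subgroups of cyclic steps are cyclic steps -/
theorem sub_cyc {N M P : Subgroup Ω} [Finite M] {x : Ω} (hM : M = N ⊔ Subgroup.zpowers x) (hN : ∀ s ∈ M, ∀ z ∈ N, s * z * s⁻¹ ∈ N) :
    ∃ y ∈ P, P ⊓ M = (P ⊓ N) ⊔ Subgroup.zpowers y := by
  have hNM : N ≤ M := by rw [hM]; exact le_sup_left
  have hxM : x ∈ M := by rw [hM]; exact Subgroup.mem_sup_right (Subgroup.mem_zpowers x)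
  haveI hn : (N.subgroupOf M).Normal := ⟨fun z hz s => hN s s.2 z hz⟩
  haveI hcyc : IsCyclic (M ⧸ N.subgroupOf M) := by
    refine ⟨QuotientGroup.mk ⟨x, hxM⟩, fun q => ?_⟩
    obtain ⟨z, rfl⟩ := QuotientGroup.mk_surjective q
    have hz : (z : Ω) ∈ N ⊔ Subgroup.zpowers x := by rw [← hM]; exact z.2
    have hle : Subgroup.zpowers x ≤ Subgroup.normalizer (N : Set Ω) := by
      intro s hs
      have hsM : s ∈ M := (Subgroup.zpowers_le.2 hxM) hs
      rw [Subgroup.mem_normalizer_iff]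
      intro z
      refine ⟨fun hz => hN s hsM z hz, fun hz => ?_⟩
      have h1 := hN s⁻¹ (M.inv_mem hsM) _ hz
      have e : s⁻¹ * (s * z * s⁻¹) * s⁻¹⁻¹ = z := by group
      rwa [e] at h1
    obtain ⟨d, hd, v, hv, hdv⟩ := (Cfsg.Agent.H22.Basic.mem_sup_of_le_normalizer hle).1 hz
    obtain ⟨k, rfl⟩ := hv
    refine ⟨k, ?_⟩
    have e : z = (⟨d, hNM hd⟩ : M) * (⟨x, hxM⟩ : M) ^ k := by
      apply Subtype.ext
      show (z : Ω) = d * ((⟨x, hxM⟩ : M) ^ k : M)
      rw [← hdv]; rfl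
    show (QuotientGroup.mk (⟨x, hxM⟩ : M) : M ⧸ N.subgroupOf M) ^ k = _
    rw [e, QuotientGroup.mk_mul, (QuotientGroup.eq_one_iff (⟨d, hNM hd⟩ : M)).2 hd, one_mul]
    rfl
  set π := QuotientGroup.mk' (N.subgroupOf M) with hπ
  obtain ⟨g, hg⟩ := (inferInstance : IsCyclic ((P.subgroupOf M).map π)).exists_generator
  obtain ⟨y, hy, hyg⟩ := g.2
  have hyP : (y : Ω) ∈ P := hy
  refine ⟨y, hyP, le_antisymm ?_ ?_⟩
  · rintro z ⟨hzP, hzM⟩
    have h1 : π ⟨z, hzM⟩ ∈ (P.subgroupOf M).map π := ⟨⟨z, hzM⟩, hzP, rfl⟩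
    obtain ⟨k, hk⟩ := hg ⟨_, h1⟩
    have hk' : (g : M ⧸ N.subgroupOf M) ^ k = π ⟨z, hzM⟩ := congrArg Subtype.val hk
    rw [← hyg, ← map_zpow] at hk'
    have h2 : (y ^ k)⁻¹ * ⟨z, hzM⟩ ∈ N.subgroupOf M := QuotientGroup.eq.1 hk'
    have h3 : ((y : Ω) ^ k)⁻¹ * z ∈ N := by
      have : (((y ^ k)⁻¹ * ⟨z, hzM⟩ : M) : Ω) ∈ N := h2
      simpa using this
    have e : z = (y : Ω) ^ k * (((y : Ω) ^ k)⁻¹ * z) := by group
    rw [e]
    refine Subgroup.mul_mem _ (Subgroup.mem_sup_right ⟨k, rfl⟩) (Subgroup.mem_sup_left ⟨?_, h3⟩)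
    exact P.mul_mem (P.inv_mem (P.zpow_mem hyP k)) hzP
  · refine sup_le (inf_le_inf_left _ hNM) ?_
    rw [Subgroup.zpowers_le]
    exact ⟨hyP, y.2⟩

variable [Finite S] {p : ℕ} [hp : Fact p.Prime]

/-- supersoluble systems have no essential subgroups -/
theorem ss_not_essential (hS : IsPGroup p S) {F : FusionSystem S} (hF : F.IsSaturated p) (h : SS F) {P : Subgroup Ω}
    (hP : F.IsEssential p P) : False := by
  obtain ⟨m, c, x, h0, h1, h2, h3⟩ := ss_nat h
  have hPS := hP.1.1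
  haveI : Finite P := finite_of_le hPS
  have hstep : ∀ i < m, ∃ y ∈ P, P ⊓ c (i + 1) = (P ⊓ c i) ⊔ Subgroup.zpowers y := by
    intro i hi
    haveI : Finite (c (i + 1)) := finite_of_le (h2 (i + 1)).1
    exact sub_cyc (h3 i hi).2 fun s hs z hz => conj_mem_of_strong (h2 i) ((h2 (i + 1)).1 hs) hz
  choose y hyP hy using hstep
  classical
  let y' : ℕ → P := fun i => if hi : i < m then ⟨y i hi, hyP i hi⟩ else 1
  have hC : CC (F.autGroup P) m (fun i => (c i).subgroupOf P) y' := by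
    refine ⟨?_, ?_, fun i => ⟨fun z hz s => ?_⟩, fun a ha i z hz => ?_, fun i hi => ?_⟩
    · show (c 0).subgroupOf P = ⊥
      rw [h0]; exact Subgroup.bot_subgroupOf P
    · show (c m).subgroupOf P = ⊤
      rw [h1, Subgroup.subgroupOf_eq_top]; exact hPS
    · exact conj_mem_of_strong (h2 i) (hPS s.2) hz
    · have h4 := (stronglyClosed_iff.1 (h2 i)).2 P _ ((mem_autGroup_iff hPS).1 ha).map z z.2 hz
      rw [totA_apply] at h4
      exact h4
    · have h4 := hy i hi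
      have hyi : y' i = ⟨y i hi, hyP i hi⟩ := dif_pos hi
      show (c (i + 1)).subgroupOf P = (c i).subgroupOf P ⊔ Subgroup.zpowers (y' i)
      have hle : P ⊓ c (i + 1) ≤ P := inf_le_left
      ext z
      constructor
      · intro hz
        have h5 : (z : Ω) ∈ P ⊓ c (i + 1) := ⟨z.2, hz⟩
        rw [h4] at h5
        have hn : Subgroup.zpowers (y i hi) ≤ Subgroup.normalizer ((P ⊓ c i : Subgroup Ω) : Set Ω) := by
          intro s hs
          have hsP : s ∈ P := (Subgroup.zpowers_le.2 (hyP i hi)) hs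
          rw [Subgroup.mem_normalizer_iff]
          intro z
          refine ⟨fun hz => ⟨P.mul_mem (P.mul_mem hsP hz.1) (P.inv_mem hsP), conj_mem_of_strong (h2 i) (hPS hsP) hz.2⟩, fun hz => ?_⟩
          have h1 : s⁻¹ * (s * z * s⁻¹) * s⁻¹⁻¹ ∈ P ⊓ c i := ⟨P.mul_mem (P.mul_mem (P.inv_mem hsP) hz.1) (P.inv_mem (P.inv_mem hsP)),
            conj_mem_of_strong (h2 i) (hPS (P.inv_mem hsP)) hz.2⟩
          have e : s⁻¹ * (s * z * s⁻¹) * s⁻¹⁻¹ = z := by group
          rwa [e] at h1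
        obtain ⟨d, hd, v, hv, hdv⟩ := (Cfsg.Agent.H22.Basic.mem_sup_of_le_normalizer hn).1 h5
        obtain ⟨k, rfl⟩ := hv
        have e : z = (⟨d, hd.1⟩ : P) * (⟨y i hi, hyP i hi⟩ : P) ^ k := by
          apply Subtype.ext
          show (z : Ω) = d * ((⟨y i hi, hyP i hi⟩ : P) ^ k : P)
          rw [← hdv]; rfl
        rw [e, hyi]
        exact Subgroup.mul_mem _ (Subgroup.mem_sup_left hd.2) (Subgroup.mem_sup_right ⟨k, rfl⟩)
      · have h6 : (c i).subgroupOf P ⊔ Subgroup.zpowers (y' i) ≤ (c (i + 1)).subgroupOf P := by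
          refine sup_le ?_ ?_
          · intro u hu
            show (u : Ω) ∈ c (i + 1)
            rw [(h3 i hi).2]; exact Subgroup.mem_sup_left hu
          · rw [Subgroup.zpowers_le, hyi]
            have h7 : y i hi ∈ P ⊓ c (i + 1) := by rw [h4]; exact Subgroup.mem_sup_right (Subgroup.mem_zpowers _)
            exact h7.2
        exact fun hz => h6 hz
  obtain ⟨K, hK1, hK2, hK3⟩ := normal_K (hS.to_le hPS) hC
  exact no_stab' hS hF hP K hK1 hK2 fun s hs => hK3 _ (pgroup_cA hS hPS hs)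

theorem ss_normal (hS : IsPGroup p S) {F : FusionSystem S} (hF : F.IsSaturated p) (h : SS F) : F.IsNormal S := by
  refine normal_of_essential hS hF ?_
  rintro P (rfl | hP)
  · exact ⟨le_rfl, fun f hf => hf.im_eq⟩
  · exact (ss_not_essential hS hF h hP).elim

/-- `p'`-groups of automorphisms -/
theorem ss_coprime (hS : IsPGroup p S) (h : ∀ F : FusionSystem S, F.IsSaturated p → SS F) (H : Subgroup (MulAut S))
    (hH : (Nat.card H).Coprime p) : IsMulCommutative H ∧ ∀ a ∈ H, a ^ (p - 1) = 1 := by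
  let G := SemidirectProduct S H H.subtype
  haveI : Finite H := inferInstance
  haveI : Finite G := Finite.of_equiv _ (SemidirectProduct.equivProd (N := S) (G := H) (φ := H.subtype)).symm
  let θ : S →* G := SemidirectProduct.inl
  have hθ : Function.Injective θ := SemidirectProduct.inl_injective
  obtain ⟨k, hk⟩ := exists_giso θ hθ
  have hcG : Nat.card G = Nat.card S * Nat.card H := by
    rw [Nat.card_congr (SemidirectProduct.equivProd (N := S) (G := H) (φ := H.subtype)), Nat.card_prod]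
  have hcθ : Nat.card θ.range = Nat.card S := Nat.card_congr (MonoidHom.ofInjective hθ).toEquiv.symm
  have hidx : θ.range.index = Nat.card H := by
    have h1 := Subgroup.card_mul_index θ.range
    rw [hcG, hcθ] at h1
    exact Nat.eq_of_mul_eq_mul_left Nat.card_pos h1
  have hsyl : IsSyl p θ.range ⊤ := by
    refine ⟨le_top, hk.isPGroup hS, ?_⟩
    rw [Subgroup.relIndex_top_right, hidx]
    exact fun h => hp.out.one_lt.ne' (Nat.Coprime.eq_one_of_dvd (hH.symm) h)
  have hsat := saturated_fss hsyl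
  have hfi := fiso_push hk.symm (fusionSystemOfSubgroup ⊤ θ.range hsyl.le)
  haveI : Finite θ.range := inferInstance
  have hF := hfi.saturated (p := p) hsyl.2.1 hsat
  obtain ⟨m, c, x, h0, h1, h2, h3⟩ := ss_nat (h _ hF)
  classical
  have hC : CC H m (fun i => (c i).subgroupOf S) (fun i => if hi : i < m then ⟨x i, (h3 i hi).1⟩ else 1) := by
    refine ⟨?_, ?_, fun i => ⟨fun z hz s => ?_⟩, fun a ha i z hz => ?_, fun i hi => ?_⟩
    · show (c 0).subgroupOf S = ⊥
      rw [h0]; exact Subgroup.bot_subgroupOf S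
    · show (c m).subgroupOf S = ⊤
      rw [h1, Subgroup.subgroupOf_eq_top]
    · exact conj_mem_of_strong (h2 i) s.2 hz
    · -- conjugation by `a` in the semidirect product
      have hcS := (h2 i).1
      have h4 := hfi.symm.strong (h2 i)
      rw [stronglyClosed_iff] at h4
      have hm : Map (fusionSystemOfSubgroup ⊤ θ.range hsyl.le) θ.range
          (fun g => (SemidirectProduct.inr ⟨a, ha⟩ : G) * g * (SemidirectProduct.inr ⟨a, ha⟩ : G)⁻¹) := by
        rw [map_fss]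
        refine ⟨le_rfl, ?_, SemidirectProduct.inr ⟨a, ha⟩, trivial, fun _ _ => rfl⟩
        rintro _ ⟨u, rfl⟩
        refine ⟨a u, ?_⟩
        have h7 := SemidirectProduct.inl_aut (φ := H.subtype) ⟨a, ha⟩ u
        rw [map_inv] at h7
        exact h7
      have hz' : tt θ z ∈ imj (c i) (tt θ) := (hfi.symm.mem_imj hcS).2 ⟨z, hz, rfl⟩
      have h5 := h4.2 _ _ hm (tt θ z) (by rw [tt_apply]; exact ⟨z, rfl⟩) hz'
      have h6 : (SemidirectProduct.inr ⟨a, ha⟩ : G) * tt θ z * (SemidirectProduct.inr ⟨a, ha⟩ : G)⁻¹ = tt θ (a z : S) := by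
        rw [tt_apply, tt_apply]
        have h7 := SemidirectProduct.inl_aut (φ := H.subtype) ⟨a, ha⟩ z
        rw [map_inv] at h7
        exact h7.symm
      rw [h6] at h5
      exact (hfi.symm.apply_mem_iff hcS (a z).2).1 h5
    · rw [dif_pos hi]
      have h4 := (h3 i hi).2
      have hxi := (h3 i hi).1
      have hle : ∀ {A B : Subgroup Ω}, A ≤ S → B ≤ S → (A ⊔ B).subgroupOf S = A.subgroupOf S ⊔ B.subgroupOf S := fun hA hB =>
        Subgroup.subgroupOf_sup hA hB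
      show (c (i + 1)).subgroupOf S = (c i).subgroupOf S ⊔ Subgroup.zpowers (⟨x i, hxi⟩ : S)
      have h8 : (c (i + 1)).subgroupOf S = (c i ⊔ Subgroup.zpowers (x i)).subgroupOf S := by rw [h4]
      rw [h8, hle (h2 i).1 (Subgroup.zpowers_le.2 hxi)]
      congr 1
      ext z
      constructor
      · rintro ⟨k, hk⟩
        exact ⟨k, Subtype.ext hk⟩
      · rintro ⟨k, hk⟩
        exact ⟨k, congrArg Subtype.val hk⟩
  exact coprime_case hS hC hH

end Cfsg.Agent.H1.Sup
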