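import Mathlib
import Cfsg.Agent.H1_SupB
import Cfsg.Agent.H1_FusZ3

set_option autoImplicit false
set_option linter.all false

/-! Construction of chains for supersoluble systems. -/

namespace Cfsg.Agent.H1.Sup

open Cfsg Cfsg.FusionSystem Cfsg.Agent.H27.Fus Cfsg.Agent.H27.Grp Cfsg.Agent.H1.FusA Cfsg.Agent.H1.Rk

section eig

variable {p : ℕ} [hp : Fact p.Prime] {V : Type*} [AddCommGroup V] [Module (ZMod p) V]

/-- eigenvectors of operators of order dividing `p - 1` -/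
theorem eig (T : Module.End (ZMod p) V) (hT : T ^ (p - 1) = 1) {v : V} (hv : v ≠ 0) (U : Submodule (ZMod p) V) (hvU : v ∈ U)
    (hU : ∀ u ∈ U, T u ∈ U) : ∃ μ : ZMod p, ∃ w ∈ U, w ≠ 0 ∧ T w = μ • w := by
  have hp1 : 1 ≤ p - 1 := by have := hp.out.two_le; omega
  obtain ⟨n, hn⟩ : ∃ n, p - 1 = n + 1 := ⟨p - 2, by omega⟩
  have hTU : ∀ i : ℕ, ∀ u ∈ U, (T ^ i) u ∈ U := by
    intro i
    induction i with
    | zero => intro u hu; simpa using hu
    | succ i ih => intro u hu; rw [pow_succ', Module.End.mul_apply]; exact hU _ (ih u hu)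
  let w : (ZMod p)ˣ → V := fun μ => ∑ i ∈ Finset.range (p - 1), ((μ : ZMod p) ^ i) • (T ^ i) v
  have hsum : ∑ μ : (ZMod p)ˣ, w μ = -v := by
    simp only [w]
    rw [Finset.sum_comm]
    have h1 : ∀ i ∈ Finset.range (p - 1), ∑ μ : (ZMod p)ˣ, ((μ : ZMod p) ^ i) • (T ^ i) v =
        if i = 0 then -v else 0 := by
      intro i hi
      rw [← Finset.sum_smul]
      have h2 := FiniteField.sum_pow_units (ZMod p) i
      rw [ZMod.card] at h2
      have h3 : ∑ μ : (ZMod p)ˣ, ((μ : ZMod p) ^ i) = if p - 1 ∣ i then -1 else 0 := by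
        rw [← h2]
      rw [h3]
      rw [Finset.mem_range] at hi
      by_cases h0 : i = 0
      · subst h0; simp
      · rw [if_neg (fun h => h0 (Nat.eq_zero_of_dvd_of_lt h hi)), if_neg h0, zero_smul]
    rw [Finset.sum_congr rfl h1, Finset.sum_ite_eq']
    rw [if_pos (Finset.mem_range.2 (by omega))]
  have hne : ∃ μ, w μ ≠ 0 := by
    by_contra hcon
    push Not at hcon
    apply hv
    rw [← neg_eq_zero, ← hsum]
    exact Finset.sum_eq_zero fun μ _ => hcon μ
  obtain ⟨μ, hμ⟩ := hne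
  refine ⟨((μ⁻¹ : (ZMod p)ˣ) : ZMod p), w μ, U.sum_mem fun i _ => U.smul_mem _ (hTU i v hvU), hμ, ?_⟩
  have h1 : (μ : ZMod p) • T (w μ) = w μ := by
    simp only [w, map_sum, map_smul, Finset.smul_sum]
    have h2 : ∀ i, (μ : ZMod p) • ((μ : ZMod p) ^ i) • T ((T ^ i) v) = ((μ : ZMod p) ^ (i + 1)) • (T ^ (i + 1)) v := by
      intro i
      rw [smul_smul, pow_succ', pow_succ' T, Module.End.mul_apply]
    rw [Finset.sum_congr rfl fun i _ => h2 i, hn, Finset.sum_range_succ, Finset.sum_range_succ']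
    have h3 : (T ^ (n + 1)) v = v := by rw [← hn, hT]; rfl
    have h4 : (μ : ZMod p) ^ (n + 1) = 1 := by
      rw [← hn]; exact ZMod.pow_card_sub_one_eq_one μ.ne_zero
    rw [h3, h4, pow_zero, pow_zero]
    rfl
  calc T (w μ) = ((μ⁻¹ : (ZMod p)ˣ) : ZMod p) • ((μ : ZMod p) • T (w μ)) := by
        rw [smul_smul, ← Units.val_mul, inv_mul_cancel, Units.val_one, one_smul]
    _ = _ := by rw [h1]

/-- common eigenvectors -/
theorem ceig [Finite V] [Nontrivial V] {ι : Type*} (T : ι → Module.End (ZMod p) V) (hT : ∀ i, T i ^ (p - 1) = 1)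
    (hc : ∀ i j v, T i (T j v) = T j (T i v)) : ∃ w : V, w ≠ 0 ∧ ∀ i, ∃ μ : ZMod p, T i w = μ • w := by
  haveI : Finite (Submodule (ZMod p) V) := inferInstance
  obtain ⟨U, hU⟩ := (Set.toFinite {U : Submodule (ZMod p) V | U ≠ ⊥ ∧ ∀ i, ∀ u ∈ U, T i u ∈ U}).exists_minimal
    ⟨⊤, top_ne_bot, fun _ _ _ => trivial⟩
  have hU1 := hU.prop
  obtain ⟨v, hvU, hv⟩ := (Submodule.ne_bot_iff U).1 hU1.1
  refine ⟨v, hv, fun i => ?_⟩
  obtain ⟨μ, w, hw, hw0, hTw⟩ := eig (T i) (hT i) hv U hvU (hU1.2 i)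
  refine ⟨μ, ?_⟩
  let E : Submodule (ZMod p) V := U ⊓ LinearMap.ker (T i - μ • LinearMap.id)
  have hmE : ∀ u, u ∈ E ↔ u ∈ U ∧ T i u = μ • u := by
    intro u
    rw [Submodule.mem_inf, LinearMap.mem_ker, LinearMap.sub_apply, LinearMap.smul_apply, LinearMap.id_apply, sub_eq_zero]
  have hEU : E ≤ U := inf_le_left
  have hE : E ∈ {U : Submodule (ZMod p) V | U ≠ ⊥ ∧ ∀ i, ∀ u ∈ U, T i u ∈ U} := by
    refine ⟨(Submodule.ne_bot_iff E).2 ⟨w, (hmE w).2 ⟨hw, hTw⟩, hw0⟩, fun j u hu => ?_⟩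
    rw [hmE] at hu ⊢
    exact ⟨hU1.2 j u hu.1, by rw [hc, hu.2, map_smul]⟩
  have h1 := hU.le_of_le hE hEU
  exact ((hmE v).1 (h1 hvU)).2

/-- multiplicative version -/
theorem ceigM {W : Type*} [CommGroup W] [Finite W] [Nontrivial W] (hW : ∀ w : W, w ^ p = 1) {ι : Type*} (T : ι → W →* W)
    (hT : ∀ i w, (T i)^[p - 1] w = w) (hc : ∀ i j w, T i (T j w) = T j (T i w)) :
    ∃ w : W, w ≠ 1 ∧ ∀ i, ∃ k : ℕ, T i w = w ^ k := by
  letI : Module (ZMod p) (Additive W) := AddCommGroup.zmodModule (n := p) (fun x => hW (Additive.toMul x))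
  haveI : Finite (Additive W) := inferInstanceAs (Finite W)
  haveI : Nontrivial (Additive W) := inferInstanceAs (Nontrivial W)
  let T' : ι → Module.End (ZMod p) (Additive W) := fun i => (MonoidHom.toAdditive (T i)).toZModLinearMap p
  have h1 : ∀ i (w : W), (T' i) (Additive.ofMul w) = Additive.ofMul (T i w) := fun i w => rfl
  have h2 : ∀ i (n : ℕ) (w : W), ((T' i) ^ n) (Additive.ofMul w) = Additive.ofMul ((T i)^[n] w) := by
    intro i n
    induction n with
    | zero => intro w; rfl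
    | succ n ih => intro w; rw [pow_succ, Module.End.mul_apply, h1, ih, Function.iterate_succ_apply]
  obtain ⟨w, hw0, hw⟩ := ceig T' (fun i => LinearMap.ext fun w => (h2 i _ (Additive.toMul w)).trans
    (congrArg Additive.ofMul (hT i (Additive.toMul w)))) (fun i j w => congrArg Additive.ofMul (hc i j (Additive.toMul w)))
  refine ⟨Additive.toMul w, fun h => hw0 (Additive.toMul.injective h), fun i => ?_⟩
  obtain ⟨μ, hμ⟩ := hw i
  refine ⟨μ.val, ?_⟩
  have h3 : μ • w = μ.val • w := by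
    rw [← Nat.cast_smul_eq_nsmul (ZMod p), ZMod.natCast_zmod_val]
  rw [h3] at hμ
  exact congrArg Additive.toMul hμ

end eig

section nxt

variable {X : Type*} [Group X] [Finite X] {p : ℕ} [hp : Fact p.Prime]

theorem exists_next (hX : IsPGroup p X) {C : Subgroup (MulAut X)} (hCc : ∀ a ∈ C, ∀ b ∈ C, a * b = b * a)
    (hCe : ∀ a ∈ C, a ^ (p - 1) = 1) {N : Subgroup X} [hN : N.Normal] (hNC : ∀ a ∈ C, ∀ x ∈ N, a x ∈ N) (hNt : N ≠ ⊤) :
    ∃ x, x ∉ N ∧ (∀ g, g * x * g⁻¹ * x⁻¹ ∈ N) ∧ ∀ a ∈ C, ∃ k : ℕ, (a x)⁻¹ * x ^ k ∈ N := by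
  have hYp : IsPGroup p (X ⧸ N) := hX.to_quotient N
  haveI hnt : Nontrivial (X ⧸ N) := by
    rw [← not_subsingleton_iff_nontrivial]
    intro h
    exact hNt (QuotientGroup.subsingleton_iff.1 h)
  let W : Subgroup (X ⧸ N) :=
    { carrier := {z | z ∈ Subgroup.center (X ⧸ N) ∧ z ^ p = 1}
      one_mem' := ⟨Subgroup.one_mem _, one_pow _⟩
      mul_mem' := by
        rintro a b ⟨h1, h2⟩ ⟨h3, h4⟩
        refine ⟨Subgroup.mul_mem _ h1 h3, ?_⟩
        have hc : Commute a b := (Subgroup.mem_center_iff.1 h3 a)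
        rw [hc.mul_pow, h2, h4, one_mul]
      inv_mem' := by
        rintro a ⟨h1, h2⟩
        exact ⟨Subgroup.inv_mem _ h1, by rw [inv_pow, h2, inv_one]⟩ }
  have hWm : ∀ z, z ∈ W ↔ z ∈ Subgroup.center (X ⧸ N) ∧ z ^ p = 1 := fun z => Iff.rfl
  letI cg : CommGroup W :=
    { (inferInstance : Group W) with
      mul_comm := fun a b => Subtype.ext (Subgroup.mem_center_iff.1 b.2.1 a) }
  haveI hnW : Nontrivial W := by
    haveI := hYp.center_nontrivial
    have hcp : IsPGroup p (Subgroup.center (X ⧸ N)) := hYp.to_subgroup _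
    have hd : p ∣ Nat.card (Subgroup.center (X ⧸ N)) := by
      obtain ⟨n, hn⟩ := IsPGroup.iff_card.1 hcp
      rw [hn]
      refine dvd_pow_self p ?_
      rintro rfl
      rw [pow_zero] at hn
      have := Finite.one_lt_card (α := Subgroup.center (X ⧸ N))
      omega
    obtain ⟨z, hz⟩ := exists_prime_orderOf_dvd_card' p hd
    have hz1 : (z : X ⧸ N) ^ p = 1 := by
      have : z ^ p = 1 := by rw [← hz, pow_orderOf_eq_one]
      exact congrArg Subtype.val this
    refine ⟨⟨⟨z, z.2, hz1⟩, 1, fun h => ?_⟩⟩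
    have h2 : (z : X ⧸ N) = 1 := congrArg Subtype.val h
    have h3 : z = 1 := Subtype.ext h2
    rw [h3, orderOf_one] at hz
    exact hp.out.one_lt.ne hz
  let q : C → (X ⧸ N →* X ⧸ N) := fun a => QuotientGroup.map N N ((a : MulAut X) : X →* X) (fun x hx => hNC a a.2 x hx)
  have hq : ∀ (a : C) (x : X), q a (QuotientGroup.mk x) = QuotientGroup.mk ((a : MulAut X) x) := fun a x => rfl
  have hqW : ∀ (a : C) (z : W), q a z ∈ W := by
    rintro a ⟨z, hz1, hz2⟩
    refine ⟨?_, ?_⟩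
    · rw [Subgroup.mem_center_iff]
      intro y
      obtain ⟨y, rfl⟩ := QuotientGroup.mk_surjective y
      have h1 : (QuotientGroup.mk y : X ⧸ N) = q a (QuotientGroup.mk ((a : MulAut X)⁻¹ y)) := by
        rw [hq, MulAut.apply_inv_self]
      rw [h1, ← map_mul, ← map_mul, Subgroup.mem_center_iff.1 hz1]
    · show q a z ^ p = 1
      rw [← map_pow, hz2, map_one]
  let T₀ : C → (W →* W) := fun a => ((q a).comp W.subtype).codRestrict W (hqW a)
  have hTa : ∀ (a : C) (w : W), ((T₀ a w : W) : X ⧸ N) = q a (w : X ⧸ N) := fun a w => rfl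
  have hTn : ∀ (a : C) (n : ℕ) (x : X) (w : W), (w : X ⧸ N) = QuotientGroup.mk x →
      (((T₀ a)^[n] w : W) : X ⧸ N) = QuotientGroup.mk (((a : MulAut X) ^ n) x) := by
    intro a n
    induction n with
    | zero => intro x w hw; exact hw
    | succ n ih =>
      intro x w hw
      rw [Function.iterate_succ_apply, pow_succ (a : MulAut X), MulAut.mul_apply]
      refine ih _ _ ?_
      rw [hTa, hw, hq]
  obtain ⟨w, hw0, hw⟩ := ceigM (p := p) (W := W) (fun w => Subtype.ext w.2.2) T₀ (fun a w => by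
    obtain ⟨x, hx⟩ := QuotientGroup.mk_surjective (w : X ⧸ N)
    apply Subtype.ext
    rw [hTn a _ x w hx.symm, hCe a a.2, hx.symm]
    rfl) (fun a b w => by
    obtain ⟨x, hx⟩ := QuotientGroup.mk_surjective (w : X ⧸ N)
    apply Subtype.ext
    rw [hTa, hTa, hTa, hTa, ← hx, hq, hq, hq, hq]
    have h2 := congrArg (fun c : MulAut X => c x) (hCc a a.2 b b.2)
    exact congrArg QuotientGroup.mk h2)
  obtain ⟨x, hx⟩ := QuotientGroup.mk_surjective (w : X ⧸ N)
  refine ⟨x, fun hxN => ?_, fun g => ?_, fun a ha => ?_⟩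
  · apply hw0
    apply Subtype.ext
    rw [← hx]
    exact (QuotientGroup.eq_one_iff x).2 hxN
  · rw [← QuotientGroup.eq_one_iff, QuotientGroup.mk_mul, QuotientGroup.mk_mul, QuotientGroup.mk_mul, QuotientGroup.mk_inv,
      QuotientGroup.mk_inv, hx, Subgroup.mem_center_iff.1 w.2.1, mul_inv_cancel_right, mul_inv_cancel]
  · obtain ⟨k, hk⟩ := hw ⟨a, ha⟩
    refine ⟨k, ?_⟩
    have h3 := congrArg Subtype.val hk
    rw [hTa, ← hx, hq] at h3
    rw [← QuotientGroup.eq, QuotientGroup.mk_pow, hx]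
    exact h3

/-- invariant chains -/
theorem exists_chain (hX : IsPGroup p X) {C : Subgroup (MulAut X)} (hCc : ∀ a ∈ C, ∀ b ∈ C, a * b = b * a)
    (hCe : ∀ a ∈ C, a ^ (p - 1) = 1) : ∃ (m : ℕ) (B : ℕ → Subgroup X) (y : ℕ → X), B 0 = ⊥ ∧ B m = ⊤ ∧
      (∀ i, (B i).Normal ∧ ∀ a ∈ C, ∀ x ∈ B i, a x ∈ B i) ∧ ∀ i, B (i + 1) = B i ⊔ Subgroup.zpowers (y i) := by
  classical
  let I := {N : Subgroup X // N.Normal ∧ ∀ a ∈ C, ∀ x ∈ N, a x ∈ N}
  have hnx : ∀ N : I, ∃ (M : I) (x : X), (M : Subgroup X) = (N : Subgroup X) ⊔ Subgroup.zpowers x ∧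
      ((N : Subgroup X) ≠ ⊤ → (N : Subgroup X) < M) := by
    rintro ⟨N, hN, hNC⟩
    by_cases hNt : N = ⊤
    · exact ⟨⟨N, hN, hNC⟩, 1, by simp, fun h => absurd hNt h⟩
    haveI := hN
    obtain ⟨x, hxN, hxg, hxC⟩ := exists_next hX hCc hCe hNC hNt
    have hxM : x ∈ N ⊔ Subgroup.zpowers x := Subgroup.mem_sup_right (Subgroup.mem_zpowers x)
    have hmem : ∀ z, z ∈ N ⊔ Subgroup.zpowers x ↔ ∃ k : ℤ, (QuotientGroup.mk z : X ⧸ N) = QuotientGroup.mk x ^ k := by
      intro z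
      constructor
      · intro hz
        obtain ⟨d, hd, v, hv, rfl⟩ := (Cfsg.Agent.H22.Basic.mem_sup_of_le_normalizer (by
          rw [Subgroup.normalizer_eq_top_iff.2 hN]; exact le_top)).1 hz
        obtain ⟨k, rfl⟩ := hv
        refine ⟨k, ?_⟩
        rw [QuotientGroup.mk_mul, (QuotientGroup.eq_one_iff d).2 hd, one_mul]
        rfl
      · rintro ⟨k, hk⟩
        rw [← QuotientGroup.mk_zpow] at hk
        have h1 := QuotientGroup.eq.1 hk.symm
        have e : z = x ^ k * ((x ^ k)⁻¹ * z) := by group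
        rw [e]
        exact Subgroup.mul_mem _ (Subgroup.mem_sup_right ⟨k, rfl⟩) (Subgroup.mem_sup_left h1)
    refine ⟨⟨N ⊔ Subgroup.zpowers x, ⟨fun z hz g => ?_⟩, fun a ha z hz => ?_⟩, x, rfl, fun _ => lt_of_le_of_ne le_sup_left fun h => hxN (by
      have h' : N = N ⊔ Subgroup.zpowers x := h
      rw [h']; exact hxM)⟩
    · rw [hmem] at hz ⊢
      obtain ⟨k, hk⟩ := hz
      refine ⟨k, ?_⟩
      have h1 : (QuotientGroup.mk g : X ⧸ N) * QuotientGroup.mk x * (QuotientGroup.mk g)⁻¹ = QuotientGroup.mk x := by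
        have h2 := (QuotientGroup.eq_one_iff _).2 (hxg g)
        rw [QuotientGroup.mk_mul, QuotientGroup.mk_mul, QuotientGroup.mk_mul, QuotientGroup.mk_inv, QuotientGroup.mk_inv] at h2
        exact mul_inv_eq_one.1 h2
      rw [QuotientGroup.mk_mul, QuotientGroup.mk_mul, QuotientGroup.mk_inv, hk, ← conj_zpow, h1]
    · rw [hmem] at hz ⊢
      obtain ⟨k, hk⟩ := hz
      obtain ⟨j, hj⟩ := hxC a ha
      refine ⟨j * k, ?_⟩
      rw [← QuotientGroup.mk_zpow] at hk
      have h1 := hNC a ha _ (QuotientGroup.eq.1 hk.symm)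
      rw [map_mul, map_inv, map_zpow] at h1
      rw [← QuotientGroup.eq.2 h1, QuotientGroup.mk_zpow, QuotientGroup.eq.2 hj, QuotientGroup.mk_pow, zpow_mul, zpow_natCast]
  choose nxt xx hx hlt using hnx
  let bot : I := ⟨⊥, inferInstance, fun a _ x hx => by
    rw [Subgroup.mem_bot] at hx ⊢
    rw [hx, map_one]⟩
  let b : ℕ → I := fun n => nxt^[n] bot
  have hb : ∀ n, b (n + 1) = nxt (b n) := fun n => Function.iterate_succ_apply' nxt n bot
  have hcard : ∀ n, (b n : Subgroup X) = ⊤ ∨ n < Nat.card (b n : Subgroup X) := by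
    intro n
    induction n with
    | zero => exact Or.inr Nat.card_pos
    | succ n ih =>
      by_cases ht : (b n : Subgroup X) = ⊤
      · left
        rw [hb, hx, ht, top_sup_eq]
      · right
        have h1 := ih.resolve_left ht
        have h2 := hlt (b n) ht
        rw [← hb] at h2
        have h3 := Cfsg.Agent.H22.Basic.card_lt_of_lt h2
        omega
  refine ⟨Nat.card X, fun n => b n, fun n => xx (b n), rfl, ?_, fun n => (b n).2, fun n => ?_⟩
  · rcases hcard (Nat.card X) with h | h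
    · exact h
    · exact absurd h (not_lt.2 (Subgroup.card_le_card_group _))
  · show (b (n + 1) : Subgroup X) = _
    rw [hb]; exact hx _

end nxt

section main

variable {Ω : Type*} [Group Ω] {S : Subgroup Ω} [Finite S] {p : ℕ} [hp : Fact p.Prime]

open Pointwise in
theorem ss_of (hS : IsPGroup p S) {F : FusionSystem S} (hF : F.IsSaturated p) (hn : F.IsNormal S)
    (hC : ∀ H : Subgroup (MulAut S), (Nat.card H).Coprime p → IsMulCommutative H ∧ ∀ h ∈ H, h ^ (p - 1) = 1) : SS F := by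
  have hfA : Finite (F.autGroup S) := finite_autGroup le_rfl
  have hsyl : IsSyl p (autInducedBy S S) (F.autGroup S) :=
    (isFullyAutomized_iff.1 (fn_automized hS hF (fn_top F))).2
  haveI hTn : ((autInducedBy S S).subgroupOf (F.autGroup S)).Normal := by
    refine ⟨fun x hx g => ?_⟩
    rw [Subgroup.mem_subgroupOf] at hx ⊢
    obtain ⟨s, hs, hxs⟩ := mem_autInducedBy.1 hx
    refine mem_autInducedBy.2 ⟨(g : MulAut S) ⟨s, hs⟩, SetLike.coe_mem _, fun y => ?_⟩
    have h1 : (x : MulAut S) ((g : MulAut S)⁻¹ y) = ⟨s, hs⟩ * (g : MulAut S)⁻¹ y * ⟨s, hs⟩⁻¹ := by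
      apply Subtype.ext
      rw [hxs]; rfl
    show (((g : MulAut S) ((x : MulAut S) ((g : MulAut S)⁻¹ y)) : S) : Ω) = _
    rw [h1, map_mul, map_mul, map_inv, MulAut.apply_inv_self]
    rfl
  have hTp : IsPGroup p ((autInducedBy S S).subgroupOf (F.autGroup S)) :=
    hsyl.2.1.of_injective ((Subgroup.subgroupOfEquivOfLe hsyl.1).toMonoidHom) (Subgroup.subgroupOfEquivOfLe hsyl.1).injective
  have hidx : ¬ p ∣ ((autInducedBy S S).subgroupOf (F.autGroup S)).index := hsyl.2.2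
  have hcop : Nat.Coprime (Nat.card ((autInducedBy S S).subgroupOf (F.autGroup S)))
      ((autInducedBy S S).subgroupOf (F.autGroup S)).index := by
    obtain ⟨n, hn⟩ := IsPGroup.iff_card.1 hTp
    rw [hn]
    exact Nat.Coprime.pow_left n ((Nat.Prime.coprime_iff_not_dvd hp.out).2 hidx)
  obtain ⟨C', hC'⟩ := Subgroup.exists_right_complement'_of_coprime hcop
  let C : Subgroup (MulAut S) := C'.map (F.autGroup S).subtype
  have hCcard : (Nat.card C).Coprime p := by
    have h1 : Nat.card C = Nat.card C' := Subgroup.card_map_of_injective (F.autGroup S).subtype_injective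
    have h2 : Nat.card C' = ((autInducedBy S S).subgroupOf (F.autGroup S)).index := by
      have h3 := hC'.card_mul
      have h4 := Subgroup.card_mul_index ((autInducedBy S S).subgroupOf (F.autGroup S))
      exact Nat.eq_of_mul_eq_mul_left Nat.card_pos (h3.trans h4.symm)
    rw [h1, h2]
    exact ((Nat.Prime.coprime_iff_not_dvd hp.out).2 hidx).symm
  obtain ⟨hCc, hCe⟩ := hC C hCcard
  obtain ⟨m, B, y, h0, h1, h2, h3⟩ := exists_chain hS (fun a ha b hb =>
    congrArg Subtype.val (hCc.is_comm.comm ⟨a, ha⟩ ⟨b, hb⟩)) hCe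
  -- invariance under `Aut_F(S)`
  have hinv : ∀ i, ∀ a ∈ F.autGroup S, ∀ x ∈ B i, a x ∈ B i := by
    intro i a ha x hx
    have h4 : (⟨a, ha⟩ : F.autGroup S) ∈ (((autInducedBy S S).subgroupOf (F.autGroup S) : Set (F.autGroup S)) * (C' : Set (F.autGroup S)) : Set (F.autGroup S)) := by
      rw [hC'.mul_eq]; trivial
    obtain ⟨t, ht, c, hc, htc⟩ := h4
    obtain ⟨s, hs, hts⟩ := mem_autInducedBy.1 (Subgroup.mem_subgroupOf.1 ht)
    have h5 : a x = (t : MulAut S) ((c : MulAut S) x) := by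
      have h6 := congrArg Subtype.val htc
      have h7 : (t : MulAut S) * (c : MulAut S) = a := h6
      rw [← h7]; rfl
    have h6 : (c : MulAut S) x ∈ B i := (h2 i).2 _ ⟨c, hc, rfl⟩ x hx
    have h7 : (t : MulAut S) ((c : MulAut S) x) = ⟨s, hs⟩ * (c : MulAut S) x * ⟨s, hs⟩⁻¹ := by
      apply Subtype.ext
      rw [hts]; rfl
    rw [h5, h7]
    exact (h2 i).1.conj_mem _ h6 _
  refine ss_of_nat (m := m) (c := fun i => (B i).map S.subtype) (x := fun i => (y i : Ω)) ?_ ?_ ?_ ?_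
  · show (B 0).map S.subtype = ⊥
    rw [h0, Subgroup.map_bot]
  · show (B m).map S.subtype = S
    rw [h1, ← MonoidHom.range_eq_map, Subgroup.range_subtype]
  · intro i
    rw [stronglyClosed_iff]
    refine ⟨Subgroup.map_subtype_le _, fun P f hf x hx hxB => ?_⟩
    obtain ⟨x', hx', rfl⟩ := hxB
    obtain ⟨g, hg, hgf, hgS⟩ := (isNormal_iff.1 hn).2 P f hf
    have hle : S ≤ P ⊔ S := le_sup_right
    have hgi : Iso F S S g := (hg.mono hle).iso_of_im_eq hgS
    rw [← hgf _ hx]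
    exact ⟨hgi.aut x', hinv i _ hgi.aut_mem x' hx', rfl⟩
  · intro i _
    refine ⟨(y i).2, ?_⟩
    show (B (i + 1)).map S.subtype = (B i).map S.subtype ⊔ Subgroup.zpowers (y i : Ω)
    rw [h3 i, Subgroup.map_sup, MonoidHom.map_zpowers]
    rfl

end main

end Cfsg.Agent.H1.Sup
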