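import Mathlib
import Cfsg.Agent.H1_SupC
import Cfsg.Agent.H12_Rank2c

set_option autoImplicit false
set_option linter.all false

/-! Abelian groups of supersoluble type. -/

namespace Cfsg.Agent.H1.Sup

open Cfsg

section aut2

variable (A : Type*) [CommGroup A]

/-- an automorphism of order three of `A × A` -/
def rho : MulAut (A × A) where
  toFun x := (x.2, (x.1 * x.2)⁻¹)
  invFun x := ((x.1 * x.2)⁻¹, x.1)
  left_inv x := by
    ext
    · simp
    · rfl
  right_inv x := by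
    ext
    · rfl
    · simp
  map_mul' x y := by
    ext
    · rfl
    · show (x.1 * y.1 * (x.2 * y.2))⁻¹ = (x.1 * x.2)⁻¹ * (y.1 * y.2)⁻¹
      rw [mul_mul_mul_comm, mul_inv]

theorem rho_cube : rho A ^ 3 = 1 := by
  ext x
  · show ((((x.2 * (x.1 * x.2)⁻¹)⁻¹ : A))) = x.1
    simp
  · show ((((x.1 * x.2)⁻¹ * (x.2 * (x.1 * x.2)⁻¹)⁻¹)⁻¹ : A)) = x.2
    simp

/-- monomial automorphisms -/
def mono : Subgroup (MulAut (A × A)) where
  carrier := {α | (∃ e f : ℤˣ, ∀ x, α x = (x.1 ^ (e : ℤ), x.2 ^ (f : ℤ))) ∨ (∃ e f : ℤˣ, ∀ x, α x = (x.2 ^ (e : ℤ), x.1 ^ (f : ℤ)))}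
  one_mem' := Or.inl ⟨1, 1, fun x => by simp⟩
  mul_mem' := by
    rintro α β (⟨e, f, h⟩ | ⟨e, f, h⟩) (⟨e', f', h'⟩ | ⟨e', f', h'⟩)
    · exact Or.inl ⟨e' * e, f' * f, fun x => by rw [MulAut.mul_apply, h', h]; simp [zpow_mul]⟩
    · exact Or.inr ⟨e' * e, f' * f, fun x => by rw [MulAut.mul_apply, h', h]; simp [zpow_mul]⟩
    · exact Or.inr ⟨f' * e, e' * f, fun x => by rw [MulAut.mul_apply, h', h]; simp [zpow_mul]⟩
    · exact Or.inl ⟨f' * e, e' * f, fun x => by rw [MulAut.mul_apply, h', h]; simp [zpow_mul]⟩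
  inv_mem' := by
    rintro α (⟨e, f, h⟩ | ⟨e, f, h⟩)
    · refine Or.inl ⟨e, f, fun x => ?_⟩
      rw [MulAut.inv_apply, MulEquiv.symm_apply_eq, h]
      ext
      · show x.1 = (x.1 ^ (e : ℤ)) ^ (e : ℤ)
        rw [← zpow_mul, Int.units_coe_mul_self, zpow_one]
      · show x.2 = (x.2 ^ (f : ℤ)) ^ (f : ℤ)
        rw [← zpow_mul, Int.units_coe_mul_self, zpow_one]
    · refine Or.inr ⟨f, e, fun x => ?_⟩
      rw [MulAut.inv_apply, MulEquiv.symm_apply_eq, h]
      ext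
      · show x.1 = (x.1 ^ (e : ℤ)) ^ (e : ℤ)
        rw [← zpow_mul, Int.units_coe_mul_self, zpow_one]
      · show x.2 = (x.2 ^ (f : ℤ)) ^ (f : ℤ)
        rw [← zpow_mul, Int.units_coe_mul_self, zpow_one]

theorem mono_sq {α : MulAut (A × A)} (hα : α ∈ mono A) : α ^ 4 = 1 := by
  rcases hα with ⟨e, f, h⟩ | ⟨e, f, h⟩
  · have h2 : α ^ 2 = 1 := by
      apply MulEquiv.ext
      intro x
      rw [pow_two, MulAut.mul_apply, h, h]
      show ((x.1 ^ (e : ℤ)) ^ (e : ℤ), (x.2 ^ (f : ℤ)) ^ (f : ℤ)) = x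
      rw [← zpow_mul, ← zpow_mul, Int.units_coe_mul_self, Int.units_coe_mul_self, zpow_one, zpow_one]
    rw [show 4 = 2 * 2 by norm_num, pow_mul, h2, one_pow]
  · have h2 : ∀ x, (α ^ 2) x = (x.1 ^ ((f : ℤ) * e), x.2 ^ ((e : ℤ) * f)) := by
      intro x
      rw [pow_two, MulAut.mul_apply, h, h]
      show ((x.1 ^ (f : ℤ)) ^ (e : ℤ), (x.2 ^ (e : ℤ)) ^ (f : ℤ)) = _
      rw [← zpow_mul, ← zpow_mul]
    apply MulEquiv.ext
    intro x
    rw [show 4 = 2 + 2 by norm_num, pow_add, MulAut.mul_apply, h2, h2]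
    show ((x.1 ^ ((f : ℤ) * e)) ^ ((f : ℤ) * e), (x.2 ^ ((e : ℤ) * f)) ^ ((e : ℤ) * f)) = x
    rw [← zpow_mul, ← zpow_mul]
    have e1 : (f : ℤ) * e * ((f : ℤ) * e) = 1 := by
      calc (f : ℤ) * e * ((f : ℤ) * e) = ((f : ℤ) * f) * ((e : ℤ) * e) := by ring
        _ = 1 := by rw [Int.units_coe_mul_self, Int.units_coe_mul_self, mul_one]
    have e2 : (e : ℤ) * f * ((e : ℤ) * f) = 1 := by
      calc (e : ℤ) * f * ((e : ℤ) * f) = ((f : ℤ) * f) * ((e : ℤ) * e) := by ring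
        _ = 1 := by rw [Int.units_coe_mul_self, Int.units_coe_mul_self, mul_one]
    rw [e1, e2, zpow_one, zpow_one]

end aut2

theorem no_homocyclic {p : ℕ} [hp : Fact p.Prime] {X A B : Type*} [Group X] [CommGroup A] [Group B] [Finite X] (e : X ≃* (A × A) × B)
    {a : A} (ha : a ≠ 1) (hp2 : p ≠ 2 → a ^ 2 ≠ 1)
    (hC : ∀ H : Subgroup (MulAut X), (Nat.card H).Coprime p → IsMulCommutative H ∧ ∀ h ∈ H, h ^ (p - 1) = 1) : False := by
  let Φ : MulAut (A × A) →* MulAut X :=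
    { toFun := fun α => (e.trans (α.prodCongr (MulEquiv.refl B))).trans e.symm
      map_one' := by
        apply MulEquiv.ext
        intro x
        show e.symm ((1 : MulAut (A × A)) (e x).1, (e x).2) = x
        rw [MulAut.one_apply, Prod.mk.eta, e.symm_apply_apply]
      map_mul' := by
        intro α β
        apply MulEquiv.ext
        intro x
        show e.symm ((α * β) (e x).1, (e x).2) = e.symm (α (e (e.symm (β (e x).1, (e x).2))).1, (e (e.symm (β (e x).1, (e x).2))).2)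
        rw [e.apply_symm_apply]; rfl }
  have hΦ : ∀ α x, Φ α x = e.symm (α (e x).1, (e x).2) := fun α x => rfl
  have hinj : Function.Injective Φ := by
    intro α β h
    apply MulEquiv.ext
    intro y
    have h1 := congrArg (fun γ : MulAut X => e (γ (e.symm (y, 1)))) h
    simp only [hΦ, e.apply_symm_apply] at h1
    exact congrArg Prod.fst h1
  by_cases h2 : p = 2
  · subst h2
    have h3 : orderOf (Φ (rho A)) ∣ 3 := orderOf_dvd_of_pow_eq_one (by rw [← map_pow, rho_cube, map_one])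
    have h4 := (hC (Subgroup.zpowers (Φ (rho A))) (by
      rw [Nat.card_zpowers]
      exact Nat.Coprime.coprime_dvd_left h3 (by norm_num))).2 _ (Subgroup.mem_zpowers _)
    rw [show 2 - 1 = 1 by norm_num, pow_one, ← map_one Φ] at h4
    have h5 := hinj h4
    have h6 := congrArg (fun γ : MulAut (A × A) => (γ (a, 1)).1) h5
    exact ha h6.symm
  · have hodd : Nat.Coprime 2 p := (Nat.coprime_primes Nat.prime_two hp.out).2 (Ne.symm h2)
    haveI : Finite (MulAut X) := inferInstance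
    haveI : Finite ((mono A).map Φ) := inferInstance
    have h3 : IsPGroup 2 ((mono A).map Φ) := by
      rintro ⟨_, α, hα, rfl⟩
      refine ⟨2, Subtype.ext ?_⟩
      show Φ α ^ (2 ^ 2) = 1
      rw [← map_pow, show 2 ^ 2 = 4 by norm_num, mono_sq A hα, map_one]
    obtain ⟨n, hn⟩ := IsPGroup.iff_card.1 h3
    have h4 := (hC _ (by rw [hn]; exact Nat.Coprime.pow_left n hodd)).1
    let τ : MulAut (A × A) := MulEquiv.prodComm
    let ν : MulAut (A × A) := (MulEquiv.inv A).prodCongr (MulEquiv.refl A)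
    have hτ : τ ∈ mono A := Or.inr ⟨1, 1, fun x => by
      show (x.2, x.1) = _
      simp⟩
    have hν : ν ∈ mono A := Or.inl ⟨-1, 1, fun x => by
      show (x.1⁻¹, x.2) = _
      simp⟩
    have h5 := congrArg Subtype.val (h4.is_comm.comm ⟨Φ τ, ⟨τ, hτ, rfl⟩⟩ ⟨Φ ν, ⟨ν, hν, rfl⟩⟩)
    have h5 : Φ τ * Φ ν = Φ ν * Φ τ := h5
    rw [← map_mul, ← map_mul] at h5
    have h6 := congrArg (fun γ : MulAut (A × A) => (γ (a, 1)).2) (hinj h5)
    have h6 : a⁻¹ = a := h6
    apply hp2 h2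
    rw [pow_two]
    nth_rewrite 1 [← h6]
    exact inv_mul_cancel a

end Cfsg.Agent.H1.Sup
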