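import Mathlib
import Cfsg.Agent.H1_SupD

set_option autoImplicit false
set_option linter.all false

/-! Abelian groups with distinct invariants. -/

namespace Cfsg.Agent.H1.Sup

open Cfsg
open Cfsg.Agent.H12.Rank2 (restrictChar restrictChar_apply)

section coord

variable {p : ℕ} [hp : Fact p.Prime]

/-- elements of order `p` are `p^(j+1)`-th powers -/
theorem c1 {e j : ℕ} (h : j + 2 ≤ e) (x : Multiplicative (ZMod (p ^ e))) (hx : x ^ p = 1) : ∃ w, w ^ (p ^ (j + 1)) = x := by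
  haveI : NeZero (p ^ e) := ⟨pow_ne_zero _ hp.out.ne_zero⟩
  obtain ⟨e', rfl⟩ : ∃ e', e = e' + 1 := ⟨e - 1, by omega⟩
  set z : ZMod (p ^ (e' + 1)) := Multiplicative.toAdd x with hz
  have h1 : p • z = 0 := hx
  have h2 : p ^ (e' + 1) ∣ p * z.val := by
    rw [← ZMod.natCast_eq_zero_iff, Nat.cast_mul, ZMod.natCast_zmod_val, ← nsmul_eq_mul]
    exact h1
  have h2' : p * p ^ e' ∣ p * z.val := by rw [← pow_succ']; exact h2
  obtain ⟨c, hc⟩ := Nat.dvd_of_mul_dvd_mul_left hp.out.pos h2'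
  refine ⟨Multiplicative.ofAdd (((p ^ (e' - (j + 1)) * c : ℕ)) : ZMod (p ^ (e' + 1))), ?_⟩
  rw [← ofAdd_nsmul, nsmul_eq_mul, ← Nat.cast_mul]
  have h3 : p ^ (j + 1) * (p ^ (e' - (j + 1)) * c) = z.val := by
    rw [← mul_assoc, ← pow_add, show j + 1 + (e' - (j + 1)) = e' by omega, hc]
  rw [h3, ZMod.natCast_zmod_val, hz, ofAdd_toAdd]

theorem c0 {e j : ℕ} (h : e ≤ j) (w : Multiplicative (ZMod (p ^ e))) : w ^ (p ^ j) = 1 := by
  haveI : NeZero (p ^ e) := ⟨pow_ne_zero _ hp.out.ne_zero⟩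
  have h1 : w ^ (p ^ e) = 1 := by
    have := pow_card_eq_one' (x := w)
    rwa [Nat.card_congr Multiplicative.toAdd, Nat.card_zmod] at this
  obtain ⟨k, rfl⟩ := Nat.exists_eq_add_of_le h
  rw [pow_add, pow_mul, h1, one_pow]

theorem cgen {n : ℕ} (w : Multiplicative (ZMod n)) : ∃ k : ℤ, w = (Multiplicative.ofAdd (1 : ZMod n)) ^ k := by
  obtain ⟨k, hk⟩ := ZMod.intCast_surjective (Multiplicative.toAdd w)
  refine ⟨k, ?_⟩
  rw [← ofAdd_zsmul, zsmul_eq_mul, mul_one, hk, ofAdd_toAdd]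

theorem cyc {ι : Type*} {e : ι → ℕ} (he : Function.Injective e) (j : ℕ) :
    ∃ y : (i : ι) → Multiplicative (ZMod (p ^ e i)), (y ^ p = 1 ∧ ∃ w, w ^ (p ^ j) = y) ∧
      ∀ x : (i : ι) → Multiplicative (ZMod (p ^ e i)), x ^ p = 1 → (∃ w, w ^ (p ^ j) = x) → ∃ k : ℤ, ∃ w,
        w ^ (p ^ (j + 1)) = (y ^ k)⁻¹ * x := by
  classical
  by_cases h0 : ∃ i, e i = j + 1
  · obtain ⟨i, hi⟩ := h0
    have hyp : (Pi.mulSingle i (Multiplicative.ofAdd (1 : ZMod (p ^ e i))) : (i : ι) → Multiplicative (ZMod (p ^ e i))) ^ (p ^ (j + 1)) = 1 := by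
      rw [← Pi.mulSingle_pow, c0 (by omega), Pi.mulSingle_one]
    refine ⟨(Pi.mulSingle i (Multiplicative.ofAdd (1 : ZMod (p ^ e i)))) ^ (p ^ j), ⟨?_, _, rfl⟩, ?_⟩
    · rw [← pow_mul, ← pow_succ]; exact hyp
    · rintro x hx ⟨w, rfl⟩
      obtain ⟨k, hk⟩ := cgen (w i)
      refine ⟨k, ?_⟩
      have hco : ∀ l, ∃ z : Multiplicative (ZMod (p ^ e l)), z ^ (p ^ (j + 1)) =
          ((((Pi.mulSingle i (Multiplicative.ofAdd (1 : ZMod (p ^ e i))) : (i : ι) → Multiplicative (ZMod (p ^ e i))) ^ (p ^ j)) ^ k)⁻¹ * w ^ (p ^ j)) l := by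
        intro l
        by_cases hl : l = i
        · subst hl
          refine ⟨1, ?_⟩
          rw [one_pow, Pi.mul_apply, Pi.inv_apply, Pi.pow_apply, Pi.pow_apply, Pi.pow_apply, Pi.mulSingle_eq_same, hk,
            ← zpow_natCast, ← zpow_natCast, ← zpow_mul, ← zpow_mul, mul_comm k (((p ^ j : ℕ)) : ℤ)]
          exact (inv_mul_cancel _).symm
        · have h1 : ((((Pi.mulSingle i (Multiplicative.ofAdd (1 : ZMod (p ^ e i))) : (i : ι) → Multiplicative (ZMod (p ^ e i))) ^ (p ^ j)) ^ k)⁻¹ * w ^ (p ^ j)) l =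
              (w l) ^ (p ^ j) := by
            rw [Pi.mul_apply, Pi.inv_apply, Pi.pow_apply, Pi.pow_apply, Pi.pow_apply, Pi.mulSingle_eq_of_ne hl, one_pow, one_zpow,
              inv_one, one_mul]
          rw [h1]
          rcases lt_trichotomy (e l) (j + 1) with h2 | h2 | h2
          · exact ⟨1, by rw [one_pow, c0 (by omega)]⟩
          · exact absurd (he (h2.trans hi.symm)) hl
          · refine c1 (by omega) _ ?_
            exact congrFun hx l
      choose z hz using hco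
      exact ⟨z, funext hz⟩
  · refine ⟨1, ⟨one_pow _, 1, one_pow _⟩, ?_⟩
    rintro x hx ⟨w, rfl⟩
    refine ⟨0, ?_⟩
    rw [zpow_zero, inv_one, one_mul]
    have hco : ∀ l, ∃ z : Multiplicative (ZMod (p ^ e l)), z ^ (p ^ (j + 1)) = (w ^ (p ^ j)) l := by
      intro l
      rcases lt_trichotomy (e l) (j + 1) with h2 | h2 | h2
      · refine ⟨1, ?_⟩
        rw [one_pow, Pi.pow_apply, c0 (by omega)]
      · exact absurd ⟨l, h2⟩ h0
      · exact c1 (by omega) _ (congrFun hx l)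
    choose z hz using hco
    exact ⟨z, funext hz⟩

/-- splitting off two equal factors -/
theorem split2 {ι : Type} {e : ι → ℕ} {i i' : ι} (hne : i ≠ i') (hee : e i = e i') :
    ∃ (H : Type) (_ : CommGroup H), Nonempty (((i : ι) → Multiplicative (ZMod (p ^ e i))) ≃*
      (Multiplicative (ZMod (p ^ e i)) × Multiplicative (ZMod (p ^ e i))) × H) := by
  classical
  let c : Multiplicative (ZMod (p ^ e i')) ≃* Multiplicative (ZMod (p ^ e i)) :=
    AddEquiv.toMultiplicative (ZMod.ringEquivCongr (by rw [hee])).toAddEquiv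
  let f : ((i : ι) → Multiplicative (ZMod (p ^ e i))) →*
      (Multiplicative (ZMod (p ^ e i)) × Multiplicative (ZMod (p ^ e i))) × ((k : {k : ι // k ≠ i ∧ k ≠ i'}) → Multiplicative (ZMod (p ^ e k))) :=
    { toFun := fun x => ((x i, c (x i')), fun k => x k)
      map_one' := by ext <;> simp
      map_mul' := by
        intro x y
        ext <;> simp }
  refine ⟨(k : {k : ι // k ≠ i ∧ k ≠ i'}) → Multiplicative (ZMod (p ^ e k)), inferInstance, ⟨MulEquiv.ofBijective f ⟨?_, ?_⟩⟩⟩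
  · intro x y hxy
    have h1 : x i = y i := congrArg (fun u => u.1.1) hxy
    have h2 : c (x i') = c (y i') := congrArg (fun u => u.1.2) hxy
    have h3 := congrArg (fun u => u.2) hxy
    funext k
    by_cases hk : k = i
    · subst hk; exact h1
    · by_cases hk' : k = i'
      · subst hk'; exact c.injective h2
      · exact congrFun h3 ⟨k, hk, hk'⟩
  · rintro ⟨⟨a, b⟩, g⟩
    refine ⟨fun k => if hk : k = i then hk ▸ a else if hk' : k = i' then hk' ▸ c.symm b else g ⟨k, hk, hk'⟩, ?_⟩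
    have e1 : (if hk : i = i then (hk ▸ a : Multiplicative (ZMod (p ^ e i))) else if hk' : i = i' then hk' ▸ c.symm b else g ⟨i, hk, hk'⟩) = a := by
      rw [dif_pos rfl]
    have e2 : (if hk : i' = i then (hk ▸ a : Multiplicative (ZMod (p ^ e i'))) else if hk' : i' = i' then (hk' ▸ c.symm b : Multiplicative (ZMod (p ^ e i'))) else g ⟨i', hk, hk'⟩) = c.symm b := by
      rw [dif_neg (Ne.symm hne), dif_pos rfl]
    refine Prod.ext (Prod.ext e1 ?_) ?_
    · exact (congrArg c e2).trans (c.apply_symm_apply b)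
    · funext k
      show (if hk : (k : ι) = i then _ else if hk' : (k : ι) = i' then _ else g ⟨k, hk, hk'⟩) = g k
      rw [dif_neg k.2.1, dif_neg k.2.2]

end coord

section abel

variable {X : Type*} [CommGroup X] [Finite X] {p : ℕ} [hp : Fact p.Prime]

theorem cyc_X {ι : Type*} {e : ι → ℕ} (he : Function.Injective e) (E : X ≃* ((i : ι) → Multiplicative (ZMod (p ^ e i)))) (j : ℕ) :
    ∃ y : X, (y ^ p = 1 ∧ ∃ w, w ^ (p ^ j) = y) ∧ ∀ x : X, x ^ p = 1 → (∃ w, w ^ (p ^ j) = x) → ∃ k : ℤ, ∃ w : X,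
        w ^ (p ^ (j + 1)) = (y ^ k)⁻¹ * x := by
  obtain ⟨y, ⟨hy1, w, hw⟩, hy⟩ := cyc (p := p) he j
  refine ⟨E.symm y, ⟨by rw [← map_pow, hy1, map_one], E.symm w, by rw [← map_pow, hw]⟩, ?_⟩
  rintro x hx ⟨u, rfl⟩
  obtain ⟨k, v, hv⟩ := hy (E (u ^ p ^ j)) (by rw [← map_pow, hx, map_one]) ⟨E u, by rw [map_pow]⟩
  refine ⟨k, E.symm v, ?_⟩
  rw [← map_pow, hv, map_mul, map_inv, map_zpow, E.symm_apply_apply]

/-- elements of order `p` -/
def Om (p : ℕ) (X : Type*) [CommGroup X] : Subgroup X where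
  carrier := {x | x ^ p = 1}
  one_mem' := one_pow p
  mul_mem' := by
    intro a b ha hb
    show (a * b) ^ p = 1
    rw [mul_pow, show a ^ p = 1 from ha, show b ^ p = 1 from hb, one_mul]
  inv_mem' := by
    intro a ha
    show a⁻¹ ^ p = 1
    rw [inv_pow, show a ^ p = 1 from ha, inv_one]

theorem Om_char : (Om p X).Characteristic := by
  rw [Subgroup.characteristic_iff_le_comap]
  intro α x hx
  show α x ^ p = 1
  rw [← map_pow, show x ^ p = 1 from hx, map_one]

theorem abel_coprime (hX : IsPGroup p X) {ι : Type*} {e : ι → ℕ} (he : Function.Injective e)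
    (E : X ≃* ((i : ι) → Multiplicative (ZMod (p ^ e i)))) (H : Subgroup (MulAut X)) (hH : (Nat.card H).Coprime p) :
    IsMulCommutative H ∧ ∀ a ∈ H, a ^ (p - 1) = 1 := by
  classical
  choose y hy1 hy2 using fun j => cyc_X (p := p) he E j
  obtain ⟨m, hm⟩ := IsPGroup.iff_card.1 hX
  let r := restrictChar (Om p X) (Om_char (p := p) (X := X))
  have hr : ∀ (a : MulAut X) (z : Om p X), ((r a z : Om p X) : X) = a z := fun a z => rfl
  haveI : Finite (MulAut X) := inferInstance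
  haveI : Finite H := inferInstance
  have hinj : ∀ a ∈ H, r a = 1 → a = 1 := by
    intro a ha h1
    have hco : Nat.Coprime (orderOf a) p := by
      refine Nat.Coprime.coprime_dvd_left ?_ hH
      have := orderOf_dvd_natCard (⟨a, ha⟩ : H)
      rwa [Subgroup.orderOf_mk] at this
    have h2 := Cfsg.Agent.H2.Critical.fixes_of_power_hom hX a hco (fun x hx => by
      have := congrArg (fun α : MulAut (Om p X) => ((α ⟨x, hx⟩ : Om p X) : X)) h1
      exact this) (Nat.card X) ⊤ (by rw [Subgroup.card_top]) (fun _ _ => trivial) (fun x _ y _ => mul_pow x y p)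
    apply MulEquiv.ext
    intro x
    exact h2 x trivial
  let B : ℕ → Subgroup (Om p X) := fun i =>
    { carrier := {x | ∃ w : X, w ^ (p ^ (m - i)) = x}
      one_mem' := ⟨1, one_pow _⟩
      mul_mem' := by
        rintro a b ⟨u, hu⟩ ⟨v, hv⟩
        exact ⟨u * v, by rw [mul_pow, hu, hv]; rfl⟩
      inv_mem' := by
        rintro a ⟨u, hu⟩
        exact ⟨u⁻¹, by rw [inv_pow, hu]; rfl⟩ }
  have hB : ∀ i (x : Om p X), x ∈ B i ↔ ∃ w : X, w ^ (p ^ (m - i)) = x := fun i x => Iff.rfl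
  have hC : CC (H.map r) m B (fun i => ⟨y (m - (i + 1)), (hy1 _).1⟩) := by
    refine ⟨?_, ?_, fun i => inferInstance, ?_, ?_⟩
    · rw [eq_bot_iff]
      rintro x ⟨w, hw⟩
      rw [Subgroup.mem_bot]
      apply Subtype.ext
      rw [← hw, Nat.sub_zero, ← hm]
      exact pow_card_eq_one'
    · rw [eq_top_iff]
      rintro x -
      exact ⟨x, by rw [Nat.sub_self, pow_zero, pow_one]⟩
    · rintro _ ⟨a, ha, rfl⟩ i x ⟨w, hw⟩
      exact ⟨a w, by rw [← map_pow, hw]; rfl⟩
    · intro i hi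
      have hmi : m - i = m - (i + 1) + 1 := by omega
      apply le_antisymm
      · rintro x ⟨w, hw⟩
        obtain ⟨k, v, hv⟩ := hy2 (m - (i + 1)) x x.2 ⟨w, hw⟩
        have e1 : x = ((⟨y (m - (i + 1)), (hy1 _).1⟩ : Om p X) ^ k) * ((((⟨y (m - (i + 1)), (hy1 _).1⟩ : Om p X) ^ k))⁻¹ * x) := by group
        rw [e1]
        refine Subgroup.mul_mem _ (Subgroup.mem_sup_right ⟨k, rfl⟩) (Subgroup.mem_sup_left ⟨v, ?_⟩)
        rw [hmi, hv]; rfl
      · refine sup_le ?_ ?_
        · rintro x ⟨w, hw⟩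
          refine ⟨w ^ p, ?_⟩
          rw [← pow_mul, ← pow_succ', ← hmi]; exact hw
        · rw [Subgroup.zpowers_le]
          exact (hy1 _).2
  have hOp : IsPGroup p (Om p X) := hX.to_subgroup _
  have hcop : (Nat.card (H.map r)).Coprime p :=
    Nat.Coprime.coprime_dvd_left (Subgroup.card_map_dvd H r) hH
  obtain ⟨h1, h2⟩ := coprime_case hOp hC hcop
  refine ⟨⟨⟨fun a b => ?_⟩⟩, fun a ha => ?_⟩
  · have h3 := congrArg Subtype.val (h1.is_comm.comm ⟨r a, ⟨a, a.2, rfl⟩⟩ ⟨r b, ⟨b, b.2, rfl⟩⟩)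
    have h3 : r a * r b = r b * r a := h3
    apply Subtype.ext
    show (a : MulAut X) * b = b * a
    rw [← mul_inv_eq_one]
    apply hinj _ (H.mul_mem (H.mul_mem a.2 b.2) (H.inv_mem (H.mul_mem b.2 a.2)))
    rw [map_mul, map_inv, map_mul, map_mul, h3, mul_inv_cancel]
  · apply hinj _ (H.pow_mem ha _)
    rw [map_pow]
    exact h2 _ ⟨a, ha, rfl⟩

/-- structure of finite abelian `p`-groups -/
theorem exists_struct (hX : IsPGroup p X) : ∃ (ι : Type) (_ : Fintype ι) (e : ι → ℕ), (∀ i, 0 < e i) ∧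
    Nonempty (X ≃* ((i : ι) → Multiplicative (ZMod (p ^ e i)))) := by
  classical
  obtain ⟨ι, hι, n, hn, ⟨E⟩⟩ := CommGroup.equiv_prod_multiplicative_zmod_of_finite X
  have h1 : ∀ i, ∃ k, 0 < k ∧ n i = p ^ k := by
    intro i
    haveI : NeZero (n i) := ⟨by have := hn i; omega⟩
    have h2 : IsPGroup p (Multiplicative (ZMod (n i))) := by
      refine hX.of_surjective ((Pi.evalMonoidHom _ i).comp E.toMonoidHom) ?_
      intro z
      refine ⟨E.symm (Pi.mulSingle i z), ?_⟩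
      show (E (E.symm (Pi.mulSingle i z))) i = z
      rw [E.apply_symm_apply, Pi.mulSingle_eq_same]
    obtain ⟨k, hk⟩ := IsPGroup.iff_card.1 h2
    rw [Nat.card_congr Multiplicative.toAdd, Nat.card_zmod] at hk
    refine ⟨k, ?_, hk⟩
    rw [Nat.pos_iff_ne_zero]
    rintro rfl
    have := hn i
    rw [hk, pow_zero] at this
    omega
  choose e he hne using h1
  refine ⟨ι, hι, e, he, ⟨E.trans (MulEquiv.piCongrRight fun i => AddEquiv.toMultiplicative (ZMod.ringEquivCongr (hne i)).toAddEquiv)⟩⟩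

end abel

end Cfsg.Agent.H1.Sup
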