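import Mathlib
import Cfsg.Agent.H1_SupE

set_option autoImplicit false
set_option linter.all false

/-! Abelian groups of supersoluble type (S5284). -/

namespace Cfsg.Agent.H1.Sup

open Cfsg Cfsg.FusionSystem Cfsg.Agent.H27.Fus Cfsg.Agent.H27.Grp Cfsg.Agent.H1.FusA Cfsg.Agent.H1.Rk

variable {Ω : Type*} [Group Ω] {S : Subgroup Ω} [Finite S] {p : ℕ} [hp : Fact p.Prime]

/-- saturated systems over abelian groups are normal -/
theorem abel_normal (hS : IsPGroup p S) (hab : IsMulCommutative S) {F : FusionSystem S} (hF : F.IsSaturated p) : F.IsNormal S := by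
  refine normal_of_essential hS hF ?_
  rintro P (rfl | hP)
  · exact ⟨le_rfl, fun f hf => hf.im_eq⟩
  · exfalso
    refine essential_ne_top hS hF hP (le_antisymm hP.1.1 fun s hs => ?_)
    apply IsCentric.cen_le hP.1
    rw [mem_cen]
    refine ⟨hs, fun x hx => ?_⟩
    exact congrArg Subtype.val (hab.is_comm.comm ⟨x, hP.1.1 hx⟩ ⟨s, hs⟩)

theorem one_ne {n : ℕ} (hn : 0 < n) : (Multiplicative.ofAdd (1 : ZMod (p ^ n))) ≠ 1 := by
  intro h
  have h1 : ((1 : ℕ) : ZMod (p ^ n)) = 0 := by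
    rw [Nat.cast_one]; exact h
  rw [ZMod.natCast_eq_zero_iff] at h1
  have h2 := Nat.le_of_dvd one_pos h1
  have h3 := Nat.one_lt_pow hn.ne' hp.out.one_lt
  omega

theorem two_ne {n : ℕ} (hn : 0 < n) (hp2 : p ≠ 2) : (Multiplicative.ofAdd (1 : ZMod (p ^ n))) ^ 2 ≠ 1 := by
  intro h
  rw [← ofAdd_nsmul] at h
  have h1 : ((2 : ℕ) : ZMod (p ^ n)) = 0 := by
    have h2 : (2 : ℕ) • (1 : ZMod (p ^ n)) = 0 := h
    rwa [nsmul_eq_mul, mul_one] at h2
  rw [ZMod.natCast_eq_zero_iff] at h1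
  have h2 := Nat.le_of_dvd two_pos h1
  have h3 : p ^ 1 ≤ p ^ n := Nat.pow_le_pow_right hp.out.pos hn
  rw [pow_one] at h3
  have h4 := hp.out.two_le
  omega

theorem abel_coprime' {X : Type*} [Group X] [Finite X] (hX : IsPGroup p X) (hab : IsMulCommutative X)
    (hno : ¬ ∃ (n : ℕ) (H : Type) (_ : CommGroup H), 0 < n ∧ Nonempty (X ≃* (Multiplicative (ZMod (p ^ n)) × Multiplicative (ZMod (p ^ n))) × H))
    (H : Subgroup (MulAut X)) (hH : (Nat.card H).Coprime p) : IsMulCommutative H ∧ ∀ a ∈ H, a ^ (p - 1) = 1 := by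
  letI : CommGroup X := { (inferInstance : Group X) with mul_comm := hab.is_comm.comm }
  obtain ⟨ι, hι, e, he, ⟨E⟩⟩ := exists_struct (p := p) hX
  have hinj : Function.Injective e := by
    intro i i' hee
    by_contra hne
    obtain ⟨H', hH', ⟨E'⟩⟩ := split2 (p := p) hne hee
    exact hno ⟨e i, H', hH', he i, ⟨E.trans E'⟩⟩
  exact abel_coprime hX hinj E H hH

theorem main5284 (hS : IsPGroup p S) (hab : IsMulCommutative S) : (∀ F : FusionSystem S, F.IsSaturated p → SS F) ↔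
    ¬ ∃ (n : ℕ) (H : Type) (_ : CommGroup H), 0 < n ∧ Nonempty (S ≃* (Multiplicative (ZMod (p ^ n)) × Multiplicative (ZMod (p ^ n))) × H) := by
  constructor
  · rintro h ⟨n, H, hH, hn, ⟨e⟩⟩
    exact no_homocyclic (p := p) e (one_ne hn) (two_ne hn) (ss_coprime hS h)
  · intro hno F hF
    exact ss_of hS hF (abel_normal hS hab hF) (abel_coprime' hS hab hno)

end Cfsg.Agent.H1.Sup
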