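import Mathlib
import Cfsg.Agent.H1_Coprime2
import Cfsg.Agent.H1_Nilp
import Cfsg.Agent.H1_Hall
import Cfsg.Agent.H22_PSolv
import Cfsg.Agent.H11_Cores

set_option autoImplicit false

open Pointwise
open scoped commutatorElement
open Cfsg.Agent.H1.Basic Cfsg.Agent.H1.Hall Cfsg.Agent.H1.SZ

universe u

namespace Cfsg.Agent.H1.SylNorm

section

variable {G : Type*} [Group G]

theorem card_sylow_of_le [Finite G] {q : ℕ} [Fact q.Prime] (Q : Sylow q G) {K : Subgroup G}
    (h : (Q : Subgroup G) ≤ K) : Nat.card (Q : Subgroup G) = q ^ (Nat.card K).factorization q := by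
  rw [← Sylow.card_eq_multiplicity (Q.subtype h), Sylow.coe_subtype, card_subgroupOf h]

theorem step [Finite G] {p q : ℕ} [hp : Fact p.Prime] [hq : Fact q.Prime] (P : Sylow p G)
    (Q : Sylow q G) (N : Subgroup G) [N.Normal]
    (hK : (P : Subgroup G) ≤ Subgroup.normalizer (((Q : Subgroup G) ⊔ N : Subgroup G) : Set G))
    (hi : ¬ p ∣ (Subgroup.normalizer ((Q : Subgroup G) : Set G)).relIndex N) :
    ∃ P' : Sylow p G, (P' : Subgroup G) ≤ Subgroup.normalizer ((Q : Subgroup G) : Set G) := by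
  set K := (Q : Subgroup G) ⊔ N with hKdef
  set L := (P : Subgroup G) ⊔ K with hL
  set NQ := Subgroup.normalizer ((Q : Subgroup G) : Set G) with hNQ
  have hQK : (Q : Subgroup G) ≤ K := le_sup_left
  have hLK : L ≤ Subgroup.normalizer (K : Set G) := sup_le hK Subgroup.le_normalizer
  have e1 : NQ.relIndex L = NQ.relIndex K := by
    apply relIndex_eq_of_factor le_sup_right
    intro l hl
    have h1 : MulAut.conj l • (Q : Subgroup G) ≤ K := by
      have := (conj_le_conj (g := l)).mpr hQK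
      rwa [conj_eq_iff_mem_normalizer.mpr (hLK hl)] at this
    obtain ⟨k, hk, hkl⟩ := Coprime.exists_conj_of_card_eq hQK h1 (card_sylow_of_le Q hQK)
      (by rw [card_conj, card_sylow_of_le Q hQK])
    refine ⟨k, hk, ?_⟩
    rw [hNQ, ← conj_eq_iff_mem_normalizer, ← conj_conj, ← hkl, conj_conj, inv_mul_cancel, conj_one]
  have e2 : NQ.relIndex K = NQ.relIndex N := by
    apply relIndex_eq_of_factor le_sup_right
    intro l hl
    rw [← SetLike.mem_coe, sup_comm, Subgroup.normal_mul N] at hl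
    obtain ⟨n, hn, x, hx, rfl⟩ := hl
    refine ⟨n, hn, ?_⟩
    simp only [inv_mul_cancel_left]
    exact Subgroup.le_normalizer hx
  have e3 : ¬ p ∣ (NQ ⊓ L).index := by
    rw [← Subgroup.relIndex_mul_index (inf_le_right : NQ ⊓ L ≤ L), Subgroup.inf_relIndex_right, e1,
      e2]
    intro h
    rcases hp.out.dvd_mul.mp h with h | h
    · exact hi h
    · exact P.not_dvd_index (h.trans (Subgroup.index_dvd_of_le le_sup_left))
  let R : Sylow p (NQ ⊓ L : Subgroup G) := default
  have e4 : ¬ p ∣ ((R : Subgroup (NQ ⊓ L : Subgroup G)).map (NQ ⊓ L).subtype).index := by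
    rw [Subgroup.index_map_subtype]
    intro h
    rcases hp.out.dvd_mul.mp h with h | h
    · exact R.not_dvd_index h
    · exact e3 h
  have e5 : IsPGroup p ((R : Subgroup (NQ ⊓ L : Subgroup G)).map (NQ ⊓ L).subtype) := R.2.map _
  exact ⟨e5.toSylow e4, (Subgroup.map_subtype_le _).trans inf_le_left⟩

/-- if every element of the `q`-group `Q` centralizes a Sylow `p`-subgroup of `G`, then `Q`
centralizes a Sylow `p`-subgroup of each normal `q'`-subgroup -/
theorem centralizes_sylow [Finite G] {p q : ℕ} [hp : Fact p.Prime] [hq : Fact q.Prime]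
    {Q : Subgroup G} (hQ : IsPGroup q Q) (N : Subgroup G) [hN : N.Normal]
    (hNq : (Nat.card N).Coprime q)
    (h : ∀ y ∈ Q, ¬ p ∣ (Subgroup.centralizer ({y} : Set G)).index) :
    ∃ P : Sylow p N, Q ≤ Subgroup.centralizer (((P : Subgroup N).map N.subtype : Subgroup G) : Set G) := by
  have hcop : ∀ X : Subgroup G, X ≤ Q → (Nat.card X).Coprime (Nat.card N) := by
    intro X hX
    obtain ⟨n, hn⟩ := IsPGroup.iff_card.mp (hQ.to_le hX)
    rw [hn]
    exact Nat.Coprime.pow_left _ hNq.symm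
  have hnor : ∀ X : Subgroup G, X ≤ Subgroup.normalizer (N : Set G) := by
    intro X
    rw [Subgroup.normalizer_eq_top_iff.mpr hN]; exact le_top
  have hsol : ∀ X : Subgroup G, X ≤ Q → Group.IsSolvable X := by
    intro X hX
    have : Group.IsNilpotent X := (hQ.to_le hX).isNilpotent
    infer_instance
  obtain ⟨P, hP⟩ := Coprime.invariant_sylow_exists Q N (hnor Q) (hcop Q le_rfl)
    (Or.inl (hsol Q le_rfl)) p
  refine ⟨P, ?_⟩
  intro y hy
  set Y := Subgroup.zpowers y with hY
  have hYQ : Y ≤ Q := Subgroup.zpowers_le.mpr hy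
  -- a Sylow subgroup of `G` centralizing `y`
  let R : Sylow p (Subgroup.centralizer ({y} : Set G)) := default
  set R' := (R : Subgroup (Subgroup.centralizer ({y} : Set G))).map
    (Subgroup.centralizer ({y} : Set G)).subtype with hR'
  have hR'p : IsPGroup p R' := R.2.map _
  have hR'i : ¬ p ∣ R'.index := by
    rw [hR', Subgroup.index_map_subtype]
    intro h'
    rcases hp.out.dvd_mul.mp h' with h' | h'
    · exact R.not_dvd_index h'
    · exact h y hy h'
  have hR'C : R' ≤ Subgroup.centralizer {y} := Subgroup.map_subtype_le _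
  have hi : ¬ p ∣ (R'.subgroupOf N).index := by
    have h1 : R'.relIndex N ∣ R'.index := by
      have h3 : R'.relIndex (N ⊔ R') = R'.relIndex N := by
        apply relIndex_eq_of_factor le_sup_left
        intro l hl
        rw [← SetLike.mem_coe, Subgroup.normal_mul N R'] at hl
        obtain ⟨x, hx, y, hy, rfl⟩ := Set.mem_mul.mp hl
        exact ⟨x, hx, by simpa using hy⟩
      rw [← h3]
      exact Subgroup.relIndex_dvd_index_of_le le_sup_right
    intro h2
    exact hR'i (h2.trans h1)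
  let S : Sylow p N := (hR'p.comap_subtype (K := N)).toSylow hi
  have hS : (S : Subgroup N).map N.subtype ≤ R' := by
    show (R'.subgroupOf N).map N.subtype ≤ R'
    rw [Subgroup.subgroupOf_map_subtype]
    exact inf_le_left
  have hSC : (S : Subgroup N).map N.subtype ≤ Subgroup.centralizer (Y : Set G) := by
    rw [Subgroup.le_centralizer_iff, hY, Subgroup.zpowers_le, Subgroup.mem_centralizer_iff]
    intro x hx
    exact Subgroup.mem_centralizer_singleton_iff.mp (hR'C (hS hx))
  obtain ⟨c, hc1, hc2⟩ := Coprime.invariant_sylow_conj Y N (hnor Y) (hcop Y hYQ)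
    (Or.inl (hsol Y hYQ)) p S P
    ((Subgroup.le_centralizer_iff.mp hSC).trans (Subgroup.centralizer_le_normalizer _))
    (hYQ.trans hP)
  rw [Subgroup.mem_centralizer_iff]
  rintro _ ⟨x, hx, rfl⟩
  have hx' : x ∈ MulAut.conj c • (S : Subgroup N) := by
    rw [← Sylow.pointwise_smul_def, hc2]; exact hx
  rw [mem_conj] at hx'
  have h5 : ((c⁻¹ * x * c : N) : G) * y = y * ((c⁻¹ * x * c : N) : G) := by
    have := hSC ⟨_, hx', rfl⟩
    exact (Subgroup.mem_centralizer_iff.mp this y (Subgroup.mem_zpowers y)).symm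
  have h6 : (c : G) * y = y * c :=
    (Subgroup.mem_centralizer_iff.mp hc1 y (Subgroup.mem_zpowers y)).symm
  have h7 : ((c⁻¹ * x * c : N) : G) = (c : G)⁻¹ * x * c := rfl
  rw [h7] at h5
  show (x : G) * y = y * x
  calc (x : G) * y = c * ((c : G)⁻¹ * x * c) * ((c : G)⁻¹ * y * c) * (c : G)⁻¹ := by group
    _ = c * ((c : G)⁻¹ * x * c) * ((c : G)⁻¹ * (y * c)) * (c : G)⁻¹ := by group
    _ = c * ((c : G)⁻¹ * x * c) * ((c : G)⁻¹ * (c * y)) * (c : G)⁻¹ := by rw [h6]
    _ = c * (((c : G)⁻¹ * x * c) * y) * (c : G)⁻¹ := by group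
    _ = c * (y * ((c : G)⁻¹ * x * c)) * (c : G)⁻¹ := by rw [h5]
    _ = (c * y) * (c : G)⁻¹ * x := by group
    _ = (y * c) * (c : G)⁻¹ * x := by rw [h6]
    _ = y * x := by group

/-- S4602, hard direction -/
theorem le_core_of_normalizes [Finite G] {p q : ℕ} [hp : Fact p.Prime] [hq : Fact q.Prime]
    (hpq : p ≠ q) (hsolv : Cfsg.IsPSolvable p G) (P : Sylow p G) (Q : Sylow q G)
    (hPQ : (P : Subgroup G) ≤ Subgroup.normalizer ((Q : Subgroup G) : Set G)) :
    (Q : Subgroup G) ≤ Cfsg.pPrimeCore p G := by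
  have hNn : (Cfsg.pPrimeCore p G).Normal := Cfsg.Agent.H1.Nilp.pPrimeCore_normal p
  set N := Cfsg.pPrimeCore p G with hN
  set f := QuotientGroup.mk' N with hf
  have hfs : Function.Surjective f := QuotientGroup.mk'_surjective N
  have hC := Cfsg.Agent.H22.PSolv.centralizer_pCore_le (G := G ⧸ N) (p := p)
    (Cfsg.Agent.H22.PSolv.isPSolvable_quotient N hsolv)
    (Cfsg.Agent.H11.Cores.pPrimeCore_quotient p)
  have hOn : (Cfsg.pCore p (G ⧸ N)).Normal := Cfsg.Agent.H1.Nilp.pCore_normal p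
  have hOp : IsPGroup p (Cfsg.pCore p (G ⧸ N)) := Cfsg.Agent.H1.Nilp.pCore_isPGroup p
  set O := Cfsg.pCore p (G ⧸ N) with hO
  have hPm : ((P.mapSurjective hfs : Sylow p (G ⧸ N)) : Subgroup (G ⧸ N)) = (P : Subgroup G).map f := rfl
  have hOP : O ≤ (P : Subgroup G).map f := by
    rw [← hPm]
    exact le_of_not_dvd_index hOp (P.mapSurjective hfs).not_dvd_index
  have hQq : IsPGroup q ((Q : Subgroup G).map f) := Q.2.map _
  have hcap : ∀ X : Subgroup (G ⧸ N), IsPGroup p X → IsPGroup q X → X = ⊥ := by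
    intro X h1 h2
    obtain ⟨a, ha⟩ := IsPGroup.iff_card.mp h1
    obtain ⟨b, hb⟩ := IsPGroup.iff_card.mp h2
    rw [← Subgroup.card_eq_one]
    have h3 : (Nat.card X).Coprime (Nat.card X) := by
      conv_lhs => rw [ha]
      rw [hb]
      exact Nat.Coprime.pow _ _ ((Nat.coprime_primes hp.out hq.out).mpr hpq)
    exact (Nat.coprime_self _).mp h3
  have hPQ' : (P : Subgroup G).map f ≤ Subgroup.normalizer (((Q : Subgroup G).map f : Subgroup (G ⧸ N)) : Set (G ⧸ N)) := by
    rintro _ ⟨x, hx, rfl⟩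
    rw [← conj_eq_iff_mem_normalizer, ← map_conj, conj_eq_iff_mem_normalizer.mpr (hPQ hx)]
  have hQC : (Q : Subgroup G).map f ≤ Subgroup.centralizer (O : Set (G ⧸ N)) := by
    intro x hx
    rw [Subgroup.mem_centralizer_iff]
    intro o ho
    have h1 : o * x * o⁻¹ * x⁻¹ ∈ O ⊓ (Q : Subgroup G).map f := by
      constructor
      · have h2 : x * o⁻¹ * x⁻¹ ∈ O := hOn.conj_mem _ (O.inv_mem ho) x
        have h3 : o * x * o⁻¹ * x⁻¹ = o * (x * o⁻¹ * x⁻¹) := by group
        have h4 : o * x * o⁻¹ * x⁻¹ ∈ O := by rw [h3]; exact O.mul_mem ho h2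
        exact h4
      · have h2 : o * x * o⁻¹ ∈ (Q : Subgroup G).map f :=
          (Subgroup.mem_normalizer_iff.mp (hPQ' (hOP ho)) x).mp hx
        have h4 : o * x * o⁻¹ * x⁻¹ ∈ (Q : Subgroup G).map f :=
          Subgroup.mul_mem _ h2 (Subgroup.inv_mem _ hx)
        exact h4
    rw [hcap _ (hOp.to_le inf_le_left) (hQq.to_le inf_le_right), Subgroup.mem_bot] at h1
    calc o * x = (o * x * o⁻¹ * x⁻¹) * (x * o) := by group
      _ = x * o := by rw [h1, one_mul]
  have hQb : (Q : Subgroup G).map f = ⊥ := hcap _ (hOp.to_le (hQC.trans hC)) hQq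
  rw [Subgroup.map_eq_bot_iff, hf, QuotientGroup.ker_mk'] at hQb
  exact hQb

/-- S4602 -/
theorem s4602 [Finite G] (p q : ℕ) [hp : Fact p.Prime] [hq : Fact q.Prime] (hpq : p ≠ q)
    (hsolv : Cfsg.IsPSolvable p G) :
    (∃ (P : Sylow p G) (Q : Sylow q G),
      (P : Subgroup G) ≤ Subgroup.normalizer ((Q : Subgroup G) : Set G)) ↔
      ¬ q ∣ (Cfsg.pPrimeCore p G).index := by
  have hNn : (Cfsg.pPrimeCore p G).Normal := Cfsg.Agent.H1.Nilp.pPrimeCore_normal p
  constructor
  · rintro ⟨P, Q, hPQ⟩ hd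
    exact Q.not_dvd_index (hd.trans (Subgroup.index_dvd_of_le
      (le_core_of_normalizes hpq hsolv P Q hPQ)))
  · intro hd
    let P : Sylow p G := default
    have hcop : (Nat.card (P : Subgroup G)).Coprime (Nat.card (Cfsg.pPrimeCore p G)) := by
      obtain ⟨n, hn⟩ := IsPGroup.iff_card.mp P.2
      rw [hn]
      exact Nat.Coprime.pow_left _ (Cfsg.Agent.H1.Nilp.pPrimeCore_coprime p).symm
    obtain ⟨Q, hQ⟩ := Coprime.invariant_sylow_exists (P : Subgroup G) (Cfsg.pPrimeCore p G)
      (by rw [Subgroup.normalizer_eq_top_iff.mpr hNn]; exact le_top) hcop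
      (Or.inl (by
        have : Group.IsNilpotent (P : Subgroup G) := P.2.isNilpotent
        infer_instance)) q
    have h1 : ¬ q ∣ ((Q : Subgroup (Cfsg.pPrimeCore p G)).map (Cfsg.pPrimeCore p G).subtype).index := by
      rw [Subgroup.index_map_subtype]
      intro h
      rcases hq.out.dvd_mul.mp h with h | h
      · exact Q.not_dvd_index h
      · exact hd h
    have h2 : IsPGroup q ((Q : Subgroup (Cfsg.pPrimeCore p G)).map (Cfsg.pPrimeCore p G).subtype) :=
      Q.2.map _
    exact ⟨P, h2.toSylow h1, hQ⟩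

end

/-- S4601 -/
theorem s4601_aux (n : ℕ) (p q : ℕ) [hp : Fact p.Prime] [hq : Fact q.Prime] (hpq : p ≠ q) :
    ∀ (G : Type u) [Group G] [Finite G], Nat.card G = n →
    (Cfsg.IsPSolvable p G ∨ Cfsg.IsPSolvable q G) →
    (∀ y : G, (∃ k : ℕ, orderOf y = q ^ k) → ¬ p ∣ (Subgroup.centralizer ({y} : Set G)).index) →
    ∃ (P : Sylow p G) (Q : Sylow q G),
      (P : Subgroup G) ≤ Subgroup.normalizer ((Q : Subgroup G) : Set G) := by
  induction n using Nat.strong_induction_on with | _ n ih => ?_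
  intro G _ _ hn hsolv h
  rcases subsingleton_or_nontrivial G with hs | hnt
  · refine ⟨default, default, ?_⟩
    intro x _
    rw [Subsingleton.elim x 1]
    exact Subgroup.one_mem _
  -- a normal subgroup
  obtain ⟨N, hN, hNb, hfac⟩ : ∃ N : Subgroup G, N.Normal ∧ N ≠ ⊥ ∧
      (IsPGroup q N ∨ (Nat.card N).Coprime p ∨ (Nat.card N).Coprime q) := by
    rcases hsolv with hs | hs
    · obtain ⟨N, hN, -, hNb, hF⟩ := Cfsg.Agent.H22.PSolv.exists_normal_fac hs ⊤ top_ne_bot
      refine ⟨N, hN, hNb, ?_⟩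
      rcases hF with ⟨k, hk⟩ | hF
      · right; right
        rw [hk]
        exact Nat.Coprime.pow_left _ ((Nat.coprime_primes hp.out hq.out).mpr hpq)
      · right; left; exact hF
    · obtain ⟨N, hN, -, hNb, hF⟩ := Cfsg.Agent.H22.PSolv.exists_normal_fac hs ⊤ top_ne_bot
      refine ⟨N, hN, hNb, ?_⟩
      rcases hF with ⟨k, hk⟩ | hF
      · left; exact IsPGroup.of_card hk
      · right; right; exact hF
  set f := QuotientGroup.mk' N with hf
  have hfs : Function.Surjective f := QuotientGroup.mk'_surjective N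
  have hquot : ∀ y : G ⧸ N, (∃ k : ℕ, orderOf y = q ^ k) →
      ¬ p ∣ (Subgroup.centralizer ({y} : Set (G ⧸ N))).index := by
    rintro y ⟨k, hk⟩
    -- lift to a q-element
    have h1 : IsPGroup q (Subgroup.zpowers y) := IsPGroup.of_card (n := k) (by
      rw [Nat.card_zpowers, hk])
    obtain ⟨Q, hQ⟩ := h1.exists_le_sylow
    obtain ⟨Q', rfl⟩ := Sylow.mapSurjective_surjective hfs q Q
    obtain ⟨x, hx, hxy⟩ := hQ (Subgroup.mem_zpowers y)
    obtain ⟨j, hj⟩ := (IsPGroup.iff_orderOf.mp Q'.2) ⟨x, hx⟩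
    rw [← Subgroup.orderOf_coe] at hj
    have h2 := h x ⟨j, hj⟩
    intro h3
    apply h2
    refine h3.trans ?_
    have h4 : (Subgroup.centralizer ({x} : Set G)).map f ≤ Subgroup.centralizer {y} := by
      rintro _ ⟨c, hc, rfl⟩
      rw [Subgroup.mem_centralizer_singleton_iff, ← hxy, ← map_mul, ← map_mul,
        Subgroup.mem_centralizer_singleton_iff.mp hc]
    exact (Subgroup.index_dvd_of_le h4).trans (Subgroup.index_map_dvd _ hfs)
  have hsolv' : Cfsg.IsPSolvable p (G ⧸ N) ∨ Cfsg.IsPSolvable q (G ⧸ N) := by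
    rcases hsolv with h1 | h1
    · exact Or.inl (Cfsg.Agent.H22.PSolv.isPSolvable_quotient N h1)
    · exact Or.inr (Cfsg.Agent.H22.PSolv.isPSolvable_quotient N h1)
  obtain ⟨P₁, Q₁, hPQ⟩ := ih (Nat.card (G ⧸ N)) (hn ▸ card_quotient_lt hNb) (G ⧸ N) rfl hsolv' hquot
  obtain ⟨P, rfl⟩ := Sylow.mapSurjective_surjective hfs p P₁
  obtain ⟨Q, rfl⟩ := Sylow.mapSurjective_surjective hfs q Q₁
  have hK : (P : Subgroup G) ≤ Subgroup.normalizer (((Q : Subgroup G) ⊔ N : Subgroup G) : Set G) := by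
    have h1 : ((Q : Subgroup G).map f).comap f = (Q : Subgroup G) ⊔ N := by
      rw [Subgroup.comap_map_eq, hf, QuotientGroup.ker_mk']
    rw [← h1, ← Subgroup.comap_normalizer_eq_of_surjective _ hfs, ← Subgroup.map_le_iff_le_comap]
    exact hPQ
  have hi : ¬ p ∣ (Subgroup.normalizer ((Q : Subgroup G) : Set G)).relIndex N := by
    rcases hfac with h1 | h1 | h1
    · have h2 : N ≤ Subgroup.normalizer ((Q : Subgroup G) : Set G) :=
        (le_of_not_dvd_index h1 Q.not_dvd_index).trans Subgroup.le_normalizer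
      rw [Subgroup.relIndex_eq_one.mpr h2]
      exact hp.out.one_lt.ne' ∘ Nat.dvd_one.mp
    · intro h2
      have h3 := h2.trans (Subgroup.relIndex_dvd_card _ _)
      exact hp.out.one_lt.ne' (Nat.eq_one_of_dvd_coprimes h1 h3 dvd_rfl)
    · obtain ⟨S, hS⟩ := centralizes_sylow (p := p) Q.2 N h1 (by
        intro y hy
        obtain ⟨j, hj⟩ := (IsPGroup.iff_orderOf.mp Q.2) ⟨y, hy⟩
        rw [← Subgroup.orderOf_coe] at hj
        exact h y ⟨j, hj⟩)
      have h2 : (S : Subgroup N).map N.subtype ≤ Subgroup.normalizer ((Q : Subgroup G) : Set G) :=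
        (Subgroup.le_centralizer_iff.mp hS).trans (Subgroup.centralizer_le_normalizer _)
      intro h3
      apply S.not_dvd_index
      have h4 : (Subgroup.normalizer ((Q : Subgroup G) : Set G)).relIndex N ∣
          ((S : Subgroup N).map N.subtype).relIndex N := Subgroup.relIndex_dvd_of_le_left _ h2
      have h5 : ((S : Subgroup N).map N.subtype).relIndex N = (S : Subgroup N).index := by
        rw [Subgroup.relIndex, Subgroup.subgroupOf,
          Subgroup.comap_map_eq_self_of_injective N.subtype_injective]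
      rw [← h5]
      exact h3.trans h4
  obtain ⟨P', hP'⟩ := step P Q N hK hi
  exact ⟨P', Q, hP'⟩

theorem s4601 (p q : ℕ) [hp : Fact p.Prime] [hq : Fact q.Prime] {G : Type*} [Group G] [Finite G]
    (hsolv : Cfsg.IsPSolvable p G ∨ Cfsg.IsPSolvable q G)
    (h : ∀ y : G, (∃ k : ℕ, orderOf y = q ^ k) → ¬ p ∣ (Subgroup.centralizer ({y} : Set G)).index) :
    ∃ (P : Sylow p G) (Q : Sylow q G),
      (P : Subgroup G) ≤ Subgroup.normalizer ((Q : Subgroup G) : Set G) := by
  by_cases hpq : p = q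
  · subst hpq
    exact ⟨default, default, Subgroup.le_normalizer⟩
  · exact s4601_aux _ p q hpq G rfl hsolv h

end Cfsg.Agent.H1.SylNorm
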