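import Mathlib
import Cfsg.Agent.H1_KW1
import Cfsg.Agent.H1_Subn2
import Cfsg.Agent.H11_Cores

set_option autoImplicit false

open Pointwise
open scoped commutatorElement
open Cfsg.Agent.H1.Basic Cfsg.Agent.H1.Nilp Cfsg.Agent.H1.Hall Cfsg.Agent.H1.Factor
open Cfsg.Agent.H1.Wiel Cfsg.Agent.H1.SZ Cfsg.Agent.H1.Schmidt

namespace Cfsg.Agent.H1.TI

variable {G : Type*} [Group G]

theorem subnormal_of_normal_in {X Y : Subgroup G} (hXY : X ≤ Y) (hY : Y.IsSubnormal)
    (h : Y ≤ Subgroup.normalizer (X : Set G)) : X.IsSubnormal :=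
  Subgroup.IsSubnormal.step X Y hXY hY ((Subgroup.normal_subgroupOf_iff_le_normalizer hXY).mpr h)

theorem subnormal_of_normal {X : Subgroup G} (h : X.Normal) : X.IsSubnormal :=
  subnormal_of_normal_in le_top Subgroup.IsSubnormal.top
    (by rw [Subgroup.normalizer_eq_top_iff.mpr h])

theorem inf_ne_bot_of_subnormal [Finite G] {p : ℕ} [hp : Fact p.Prime]
    (hO' : Cfsg.pPrimeCore p G = ⊥) (P : Sylow p G) {X : Subgroup G} (hX : X.IsSubnormal)
    (hb : X ≠ ⊥) : (P : Subgroup G) ⊓ X ≠ ⊥ := by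
  intro h0
  obtain ⟨Q, hQ⟩ := Cfsg.Agent.H1.Subn.sylow_inf_subnormal p X hX P
  have h1 : (Q : Subgroup X) = ⊥ := by
    rw [hQ, Subgroup.subgroupOf_eq_bot, disjoint_iff]
    exact h0
  have h2 : ¬ p ∣ Nat.card X := by
    have h3 := Q.not_dvd_index
    rwa [h1, Subgroup.index_bot] at h3
  apply hb
  rw [eq_bot_iff, ← hO']
  apply Cfsg.Agent.H11.Cores.le_pPrimeCore_of_isSubnormal p hX
  rw [Nat.coprime_comm, hp.out.coprime_iff_not_dvd]
  exact h2

theorem not_le_normalizer [Finite G] {p : ℕ} [hp : Fact p.Prime] (hO : Cfsg.pCore p G = ⊥)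
    (hO' : Cfsg.pPrimeCore p G = ⊥) (P : Sylow p G) {X : Subgroup G} (hX : X.IsSubnormal)
    (hb : X ≠ ⊥) : ¬ X ≤ Subgroup.normalizer ((P : Subgroup G) : Set G) := by
  intro hle
  apply inf_ne_bot_of_subnormal hO' P hX hb
  rw [eq_bot_iff, ← hO]
  apply Cfsg.Agent.H11.Cores.le_pCore_of_isSubnormal p _ (P.2.to_le inf_le_left)
  apply subnormal_of_normal_in inf_le_right hX
  intro x hx
  rw [← conj_eq_iff_mem_normalizer, Subgroup.smul_inf, conj_eq_iff_mem_normalizer.mpr (hle hx),
    conj_eq_iff_mem_normalizer.mpr (Subgroup.le_normalizer hx)]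

/-- trivial intersection Sylow subgroup -/
def STI {p : ℕ} (P : Sylow p G) : Prop :=
  ∀ g : G, g ∉ Subgroup.normalizer ((P : Subgroup G) : Set G) →
    (P : Subgroup G) ⊓ (MulAut.conj g • (P : Subgroup G)) = ⊥

theorem STI.le_normalizer {p : ℕ} {P : Sylow p G} (h : STI P) {X Y : Subgroup G}
    (hXY : X ≤ Subgroup.centralizer (Y : Set G)) (hY : (P : Subgroup G) ⊓ Y ≠ ⊥) :
    X ≤ Subgroup.normalizer ((P : Subgroup G) : Set G) := by
  obtain ⟨y, hy, hy1⟩ := (Subgroup.bot_or_exists_ne_one _).resolve_left hY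
  intro x hx
  by_contra hn
  have h1 : y ∈ (P : Subgroup G) ⊓ (MulAut.conj x • (P : Subgroup G)) := by
    refine ⟨hy.1, ?_⟩
    have h2 : y ∈ MulAut.conj x • (P : Subgroup G) := by
      rw [mem_conj]
      have h3 : y * x = x * y := (Subgroup.mem_centralizer_iff.mp (hXY hx)) y hy.2
      rw [mul_assoc, h3, inv_mul_cancel_left]
      exact hy.1
    exact h2
  rw [h x hn, Subgroup.mem_bot] at h1
  exact hy1 h1

theorem STI.conj {p : ℕ} [Finite G] [Fact p.Prime] {P : Sylow p G} (h : STI P) (Q : Sylow p G) : STI Q := by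
  obtain ⟨x, rfl⟩ := MulAction.exists_smul_eq G P Q
  intro g hg
  rw [Sylow.coe_subgroup_smul] at hg ⊢
  have h1 : x⁻¹ * g * x ∉ Subgroup.normalizer ((P : Subgroup G) : Set G) := by
    intro hn
    apply hg
    rw [← conj_eq_iff_mem_normalizer] at hn ⊢
    rw [conj_conj]
    have e : g * x = x * (x⁻¹ * g * x) := by group
    rw [e, ← conj_conj, hn]
  have h2 := congrArg (fun H => MulAut.conj x • H) (h _ h1)
  rw [Subgroup.smul_inf, conj_conj] at h2
  have e : x * (x⁻¹ * g * x) = g * x := by group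
  rw [e, conj_of_normal x (⊥ : Subgroup G)] at h2
  rw [conj_conj]
  exact h2

/-- S4620 -/
theorem unique_minimal [Finite G] {p : ℕ} [hp : Fact p.Prime] (hO : Cfsg.pCore p G = ⊥)
    (hO' : Cfsg.pPrimeCore p G = ⊥) (P : Sylow p G) (hP1 : (P : Subgroup G) ≠ ⊥) (hTI : STI P) :
    ∃ N : Subgroup G, N.Normal ∧ N ≠ ⊥ ∧ (∀ K : Subgroup G, K.Normal → K ≠ ⊥ → N ≤ K) ∧
      IsSimpleGroup N ∧ ¬ IsMulCommutative N ∧ Subgroup.centralizer (N : Set G) = ⊥ ∧
      ∀ Q : Sylow p N, (Q : Subgroup N) ≠ ⊥ ∧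
        ∀ n : N, n ∉ Subgroup.normalizer ((Q : Subgroup N) : Set N) →
          (Q : Subgroup N) ⊓ (MulAut.conj n • (Q : Subgroup N)) = ⊥ := by
  have hnt : Nontrivial G := by
    obtain ⟨y, hy, hy1⟩ := (Subgroup.bot_or_exists_ne_one _).resolve_left hP1
    exact ⟨⟨y, 1, hy1⟩⟩
  obtain ⟨N, hN, hNb, hmin⟩ := exists_minimal_normal_of_nontrivial G
  have hNs : N.IsSubnormal := subnormal_of_normal hN
  have hcen : ∀ K : Subgroup G, K.Normal → K ≠ ⊥ → N ⊓ K ≠ ⊥ := by
    intro K hK hKb h0
    have h1 : N ≤ Subgroup.centralizer (K : Set G) := by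
      intro n hn
      rw [Subgroup.mem_centralizer_iff]
      intro k hk
      exact (Subgroup.commute_of_normal_of_disjoint N K hN hK (disjoint_iff.mpr h0) n k hn hk).symm
    exact not_le_normalizer hO hO' P hNs hNb
      (hTI.le_normalizer h1 (inf_ne_bot_of_subnormal hO' P (subnormal_of_normal hK) hKb))
  have huniq : ∀ K : Subgroup G, K.Normal → K ≠ ⊥ → N ≤ K := by
    intro K hK hKb
    have h1 : (N ⊓ K).Normal := inferInstance
    rcases hmin (N ⊓ K) h1 inf_le_left with h2 | h2
    · exact absurd h2 (hcen K hK hKb)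
    · exact inf_eq_left.mp h2
  have hC : Subgroup.centralizer (N : Set G) = ⊥ := by
    by_contra hCb
    have h1 : N ≤ Subgroup.centralizer (N : Set G) := huniq _ inferInstance hCb
    exact not_le_normalizer hO hO' P hNs hNb
      (hTI.le_normalizer h1 (inf_ne_bot_of_subnormal hO' P hNs hNb))
  have hnc : ¬ IsMulCommutative N := by
    intro hc
    apply hNb
    rw [eq_bot_iff, ← hC]
    intro x hx
    rw [Subgroup.mem_centralizer_iff]
    intro y hy
    exact comm_of_isMulCommutative hc hy hx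
  refine ⟨N, hN, hNb, huniq, ?_, hnc, hC, ?_⟩
  · have hNnt : Nontrivial N := (Subgroup.nontrivial_iff_ne_bot N).mpr hNb
    refine ⟨fun S₀ hS₀ => ?_⟩
    by_contra hcon
    push Not at hcon
    obtain ⟨hS₀b, hS₀t⟩ := hcon
    obtain ⟨S, hSS₀, hSn, hSb, hSmin⟩ := exists_minimal_normal hS₀ hS₀b
    have hSt : S ≠ ⊤ := fun h => hS₀t (top_le_iff.mp (h ▸ hSS₀))
    set S' := S.map N.subtype with hS'
    have hS'N : S' ≤ N := Subgroup.map_subtype_le _
    have hNS' : N ≤ Subgroup.normalizer (S' : Set G) := by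
      rw [← Subgroup.normal_subgroupOf_iff_le_normalizer hS'N, hS', Subgroup.subgroupOf,
        Subgroup.comap_map_eq_self_of_injective N.subtype_injective]
      exact hSn
    have hS'b : S' ≠ ⊥ := fun h => hSb ((Subgroup.map_eq_bot_iff_of_injective _ N.subtype_injective).mp h)
    have hS'min : ∀ M : Subgroup G, M ≤ S' → N ≤ Subgroup.normalizer (M : Set G) → M = ⊥ ∨ M = S' := by
      intro M hM hMn
      have h1 : (M.subgroupOf N).Normal :=
        (Subgroup.normal_subgroupOf_iff_le_normalizer (hM.trans hS'N)).mpr hMn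
      have h2 : M.subgroupOf N ≤ S := by
        rintro ⟨x, hx⟩ hxM
        have h3 : x ∈ M := Subgroup.mem_subgroupOf.mp hxM
        obtain ⟨s, hs, hsx⟩ := hM h3
        have : s = ⟨x, hx⟩ := Subtype.ext hsx
        rwa [← this]
      have h4 : (M.subgroupOf N).map N.subtype = M := by
        rw [Subgroup.subgroupOf_map_subtype, inf_eq_left.mpr (hM.trans hS'N)]
      rcases hSmin _ h1 h2 with h3 | h3
      · left; rw [← h4, h3, Subgroup.map_bot]
      · right; rw [← h4, h3]
    have hS'ne : S' ≠ N := by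
      intro h
      apply hSt
      rw [eq_top_iff]
      intro x _
      have h1 : (x : G) ∈ S' := by rw [h]; exact x.2
      obtain ⟨s, hs, hsx⟩ := h1
      have : s = x := Subtype.ext hsx
      rwa [← this]
    have hS'nn : ¬ S'.Normal := by
      intro h
      rcases hmin S' h hS'N with h1 | h1
      · exact hS'b h1
      · exact hS'ne h1
    obtain ⟨g, hg⟩ : ∃ g : G, MulAut.conj g • S' ≠ S' := by
      by_contra hcon
      push Not at hcon
      apply hS'nn
      rw [← Subgroup.normalizer_eq_top_iff, eq_top_iff]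
      intro g _
      exact conj_eq_iff_mem_normalizer.mp (hcon g)
    have hTN : MulAut.conj g • S' ≤ N := by
      have := (conj_le_conj (g := g)).mpr hS'N
      rwa [conj_of_normal g N] at this
    have hNT : N ≤ Subgroup.normalizer ((MulAut.conj g • S' : Subgroup G) : Set G) := by
      intro x hx
      rw [← conj_eq_iff_mem_normalizer, conj_conj]
      have h1 : g⁻¹ * x * g ∈ N := by
        have := hN.conj_mem x hx g⁻¹
        rwa [inv_inv] at this
      have e : x * g = g * (g⁻¹ * x * g) := by group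
      rw [e, ← conj_conj, conj_eq_iff_mem_normalizer.mpr (hNS' h1)]
    have hdis : S' ⊓ MulAut.conj g • S' = ⊥ := by
      have h1 : N ≤ Subgroup.normalizer ((S' ⊓ MulAut.conj g • S' : Subgroup G) : Set G) := by
        intro x hx
        rw [← conj_eq_iff_mem_normalizer, Subgroup.smul_inf,
          conj_eq_iff_mem_normalizer.mpr (hNS' hx), conj_eq_iff_mem_normalizer.mpr (hNT hx)]
      rcases hS'min _ inf_le_left h1 with h2 | h2
      · exact h2
      · exfalso
        apply hg
        symm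
        exact eq_of_le_of_card_ge' (inf_eq_left.mp h2) (card_conj g S').le
    have hcomm : S' ≤ Subgroup.centralizer ((MulAut.conj g • S' : Subgroup G) : Set G) := by
      intro x hx
      rw [Subgroup.mem_centralizer_iff]
      intro y hy
      -- the commutator lies in the intersection
      have h1 : x * y * x⁻¹ * y⁻¹ ∈ S' ⊓ MulAut.conj g • S' := by
        refine ⟨?_, ?_⟩
        · have h2 : y * x⁻¹ * y⁻¹ ∈ S' :=
            (Subgroup.mem_normalizer_iff.mp (hNS' (hTN hy)) x⁻¹).mp (S'.inv_mem hx)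
          have h3 : x * y * x⁻¹ * y⁻¹ = x * (y * x⁻¹ * y⁻¹) := by group
          have h4 : x * y * x⁻¹ * y⁻¹ ∈ S' := by rw [h3]; exact S'.mul_mem hx h2
          exact h4
        · have h2 : x * y * x⁻¹ ∈ MulAut.conj g • S' :=
            (Subgroup.mem_normalizer_iff.mp (hNT (hS'N hx)) y).mp hy
          have h4 : x * y * x⁻¹ * y⁻¹ ∈ MulAut.conj g • S' :=
            Subgroup.mul_mem _ h2 (Subgroup.inv_mem _ hy)
          exact h4
      rw [hdis, Subgroup.mem_bot] at h1
      have h5 : x * y = y * x := by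
        calc x * y = (x * y * x⁻¹ * y⁻¹) * (y * x) := by group
          _ = y * x := by rw [h1, one_mul]
      exact h5.symm
    have hTs : (MulAut.conj g • S' : Subgroup G).IsSubnormal := subnormal_of_normal_in hTN hNs hNT
    have hTb : (MulAut.conj g • S' : Subgroup G) ≠ ⊥ := by
      intro h
      apply hS'b
      rw [← Subgroup.card_eq_one, ← card_conj g, h, Subgroup.card_bot]
    have hS's : S'.IsSubnormal := subnormal_of_normal_in hS'N hNs hNS'
    exact not_le_normalizer hO hO' P hS's hS'b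
      (hTI.le_normalizer hcomm (inf_ne_bot_of_subnormal hO' P hTs hTb))
  · intro Q
    have h1 : IsPGroup p ((Q : Subgroup N).map N.subtype) := Q.2.map _
    obtain ⟨R, hR⟩ := h1.exists_le_sylow
    have hRN : (R : Subgroup G) ⊓ N ≤ (Q : Subgroup N).map N.subtype := by
      have h2 : IsPGroup p (((R : Subgroup G) ⊓ N).subgroupOf N) :=
        (R.2.to_le inf_le_left : IsPGroup p ((R : Subgroup G) ⊓ N : Subgroup G)).comap_subtype
      have h3 : (Q : Subgroup N) ≤ ((R : Subgroup G) ⊓ N).subgroupOf N := by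
        intro x hx
        exact Subgroup.mem_subgroupOf.mpr ⟨hR ⟨x, hx, rfl⟩, x.2⟩
      have h4 := Q.3 h2 h3
      intro x hx
      have h5 : (⟨x, hx.2⟩ : N) ∈ ((R : Subgroup G) ⊓ N).subgroupOf N := Subgroup.mem_subgroupOf.mpr hx
      rw [h4] at h5
      exact ⟨_, h5, rfl⟩
    refine ⟨?_, ?_⟩
    · intro h0
      apply inf_ne_bot_of_subnormal hO' R hNs hNb
      rw [h0, Subgroup.map_bot, le_bot_iff] at hRN
      exact hRN
    · intro n hn
      by_contra hne
      apply hn
      obtain ⟨x, hx, hx1⟩ := (Subgroup.bot_or_exists_ne_one _).resolve_left hne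
      have hx1' : (x : G) ≠ 1 := fun h => hx1 (Subtype.ext h)
      have hxQ : x ∈ (Q : Subgroup N) := hx.1
      have hxQ' : x ∈ MulAut.conj n • (Q : Subgroup N) := hx.2
      rw [mem_conj] at hxQ'
      have hnR : (n : G) ∈ Subgroup.normalizer ((R : Subgroup G) : Set G) := by
        by_contra hnR
        have h2 := hTI.conj R (n : G) hnR
        have h3 : (x : G) ∈ (R : Subgroup G) ⊓ (MulAut.conj (n : G) • (R : Subgroup G)) := by
          refine ⟨hR ⟨x, hxQ, rfl⟩, ?_⟩
          have h4 : (x : G) ∈ MulAut.conj (n : G) • (R : Subgroup G) := by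
            rw [mem_conj]
            exact hR ⟨_, hxQ', rfl⟩
          exact h4
        rw [h2, Subgroup.mem_bot] at h3
        exact hx1' h3
      -- n normalizes Q
      rw [Subgroup.mem_normalizer_iff]
      have hQR : ∀ y : N, y ∈ (Q : Subgroup N) ↔ (y : G) ∈ (R : Subgroup G) := by
        intro y
        constructor
        · intro hy; exact hR ⟨y, hy, rfl⟩
        · intro hy
          obtain ⟨z, hz, hzy⟩ := hRN ⟨hy, y.2⟩
          have : z = y := Subtype.ext hzy
          rwa [← this]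
      intro y
      show y ∈ (Q : Subgroup N) ↔ n * y * n⁻¹ ∈ (Q : Subgroup N)
      rw [hQR, hQR]
      exact Subgroup.mem_normalizer_iff.mp hnR y

end Cfsg.Agent.H1.TI
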