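import Mathlib
import Cfsg.Prelude.Def_FusionSystem
import Cfsg.Agent.H27_FusNorm2
import Cfsg.Agent.H27_FusEss
import Cfsg.Agent.H27_Model2
import Cfsg.Agent.H1_FusA

set_option autoImplicit false
set_option linter.all false

/-! `p`-groups with a unique abelian subgroup of index `p`. -/

namespace Cfsg.Agent.H1.Ua

open Cfsg Cfsg.FusionSystem Cfsg.Agent.H27.Fus Cfsg.Agent.H27.Grp
open scoped commutatorElement

universe u
variable {Ω : Type u} [Group Ω] {S A B K L P : Subgroup Ω} {p : ℕ}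

structure UAb (p : ℕ) (S A : Subgroup Ω) : Prop where
  le : A ≤ S
  comm : ∀ a ∈ A, ∀ b ∈ A, a * b = b * a
  idx : A.relIndex S = p
  uniq : ∀ B : Subgroup Ω, B ≤ S → (∀ a ∈ B, ∀ b ∈ B, a * b = b * a) → B.relIndex S = p → B = A
  na : ∃ a ∈ S, ∃ b ∈ S, a * b ≠ b * a

/-- `Z(S)` -/
abbrev Zs (S : Subgroup Ω) : Subgroup Ω := centralizerIn S S

theorem mem_Zs {S : Subgroup Ω} {z : Ω} : z ∈ Zs S ↔ z ∈ S ∧ ∀ s ∈ S, s * z = z * s := mem_cen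

/-- `Z₂(S)` -/
def Z2s (S : Subgroup Ω) : Subgroup Ω := (Subgroup.upperCentralSeries S 2).map S.subtype

theorem mem_Z2s {S : Subgroup Ω} {z : Ω} : z ∈ Z2s S ↔ z ∈ S ∧ ∀ s ∈ S, z * s * z⁻¹ * s⁻¹ ∈ Zs S := by
  unfold Z2s
  rw [Subgroup.mem_map]
  constructor
  · rintro ⟨⟨y, hyS⟩, hy, rfl⟩
    refine ⟨hyS, fun s hs => ?_⟩
    rw [Subgroup.mem_upperCentralSeries_succ_iff] at hy
    have h1 := hy ⟨s, hs⟩
    rw [Subgroup.upperCentralSeries_one, Subgroup.mem_center_iff] at h1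
    rw [mem_Zs]
    refine ⟨S.mul_mem (S.mul_mem (S.mul_mem hyS hs) (S.inv_mem hyS)) (S.inv_mem hs), fun t ht => ?_⟩
    exact congrArg Subtype.val (h1 ⟨t, ht⟩)
  · rintro ⟨hz, h⟩
    refine ⟨⟨z, hz⟩, ?_, rfl⟩
    rw [Subgroup.mem_upperCentralSeries_succ_iff]
    rintro ⟨s, hs⟩
    rw [Subgroup.upperCentralSeries_one, Subgroup.mem_center_iff]
    rintro ⟨t, ht⟩
    exact Subtype.ext ((mem_Zs.1 (h s hs)).2 t ht)

section basic

variable [Fact p.Prime] [Finite S]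

theorem card_rel (hBS : B ≤ S) : Nat.card B * B.relIndex S = Nat.card S := by
  have := Subgroup.card_mul_index (B.subgroupOf S)
  rwa [Nat.card_congr (Subgroup.subgroupOfEquivOfLe hBS).toEquiv] at this

theorem UAb.card (h : UAb p S A) : Nat.card A * p = Nat.card S := by
  rw [← h.idx]; exact card_rel h.le

theorem UAb.normal (hS : IsPGroup p S) (h : UAb p S A) : (A.subgroupOf S).Normal := by
  apply Subgroup.normal_of_index_eq_minFac_card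
  have hp := (Fact.out : p.Prime)
  obtain ⟨n, hn⟩ := IsPGroup.iff_card.1 hS
  have h1 : (A.subgroupOf S).index = p := h.idx
  rw [h1, hn]
  rcases n with _ | n
  · exfalso
    rw [pow_zero] at hn
    have := h.card
    rw [hn] at this
    exact hp.one_lt.ne' (Nat.eq_one_of_mul_eq_one_left this)
  · exact (hp.pow_minFac n.succ_ne_zero).symm

theorem UAb.nrm (hS : IsPGroup p S) (h : UAb p S A) {s a : Ω} (hs : s ∈ S) (ha : a ∈ A) : s * a * s⁻¹ ∈ A :=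
  (h.normal hS).conj_mem ⟨a, h.le ha⟩ ha ⟨s, hs⟩

theorem UAb.gen (hS : IsPGroup p S) (h : UAb p S A) {x : Ω} (hx : x ∈ S) (hxA : x ∉ A) {s : Ω} (hs : s ∈ S) :
    ∃ n : ℤ, ∃ a ∈ A, s = a * x ^ n := by
  haveI := h.normal hS
  have hc : Nat.card (S ⧸ A.subgroupOf S) = p := h.idx
  have h1 : Subgroup.zpowers (QuotientGroup.mk' (A.subgroupOf S) ⟨x, hx⟩) = ⊤ := by
    apply zpowers_eq_top_of_prime_card hc
    intro h2
    rw [QuotientGroup.mk'_apply, QuotientGroup.eq_one_iff] at h2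
    exact hxA h2
  have h2 : QuotientGroup.mk' (A.subgroupOf S) ⟨s, hs⟩ ∈
      Subgroup.zpowers (QuotientGroup.mk' (A.subgroupOf S) ⟨x, hx⟩) := by rw [h1]; trivial
  obtain ⟨n, hn⟩ := h2
  refine ⟨n, s * (x ^ n)⁻¹, ?_, by group⟩
  have h3 : QuotientGroup.mk' (A.subgroupOf S) (⟨x, hx⟩ ^ n) = QuotientGroup.mk' (A.subgroupOf S) ⟨s, hs⟩ := by
    rw [map_zpow]; exact hn
  rw [QuotientGroup.mk'_apply, QuotientGroup.mk'_apply] at h3
  have h4 := QuotientGroup.eq.1 h3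
  have h5 : x ^ (-n) * s ∈ A := by
    have : (((⟨x, hx⟩ : S) ^ n)⁻¹ * ⟨s, hs⟩ : S).1 ∈ A := h4
    simpa using this
  have h6 := h.nrm hS (S.zpow_mem hx n) h5
  have h7 : x ^ n * (x ^ (-n) * s) * (x ^ n)⁻¹ = s * (x ^ n)⁻¹ := by group
  rwa [h7] at h6

theorem UAb.exists_out (h : UAb p S A) : ∃ x ∈ S, x ∉ A := by
  by_contra hc
  push Not at hc
  obtain ⟨a, ha, b, hb, hab⟩ := h.na
  exact hab (h.comm a (hc a ha) b (hc b hb))

theorem UAb.comm_mem (hS : IsPGroup p S) (h : UAb p S A) {s t : Ω} (hs : s ∈ S) (ht : t ∈ S) :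
    s * t * s⁻¹ * t⁻¹ ∈ A := by
  haveI := h.normal hS
  have hc : Nat.card (S ⧸ A.subgroupOf S) = p := h.idx
  haveI : IsCyclic (S ⧸ A.subgroupOf S) := isCyclic_of_prime_card hc
  have h1 : ∀ u v : S ⧸ A.subgroupOf S, u * v = v * u := fun u v => by
    letI := IsCyclic.commGroup (α := S ⧸ A.subgroupOf S)
    exact mul_comm u v
  have h2 := h1 (QuotientGroup.mk' (A.subgroupOf S) ⟨s, hs⟩) (QuotientGroup.mk' (A.subgroupOf S) ⟨t, ht⟩)
  have h3 : QuotientGroup.mk' (A.subgroupOf S) (⟨s, hs⟩ * ⟨t, ht⟩ * ⟨s, hs⟩⁻¹ * ⟨t, ht⟩⁻¹) = 1 := by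
    rw [map_mul, map_mul, map_mul, map_inv, map_inv, h2]; group
  rw [QuotientGroup.mk'_apply, QuotientGroup.eq_one_iff] at h3
  exact h3

theorem UAb.pow_mem (hS : IsPGroup p S) (h : UAb p S A) {s : Ω} (hs : s ∈ S) : s ^ p ∈ A := by
  haveI := h.normal hS
  have h1 := (A.subgroupOf S).pow_index_mem (⟨s, hs⟩ : S)
  rw [show (A.subgroupOf S).index = p from h.idx] at h1
  exact h1

theorem UAb.Z_le (hS : IsPGroup p S) (h : UAb p S A) : Zs S ≤ A := by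
  intro z hz
  by_contra hzA
  obtain ⟨hzS, hzc⟩ := mem_Zs.1 hz
  obtain ⟨a, ha, b, hb, hab⟩ := h.na
  obtain ⟨m, a', ha', rfl⟩ := h.gen hS hzS hzA ha
  obtain ⟨n, b', hb', rfl⟩ := h.gen hS hzS hzA hb
  apply hab
  have h1 : Commute a' (z ^ n) := Commute.zpow_right (hzc a' (h.le ha')) n
  have h2 : Commute b' (z ^ m) := Commute.zpow_right (hzc b' (h.le hb')) m
  have h3 : Commute a' b' := h.comm a' ha' b' hb'
  have h4 : Commute (z ^ m) (z ^ n) := Commute.zpow_zpow_self z m n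
  exact (Commute.mul_right (Commute.mul_left h3 h2.symm) (Commute.mul_left h1 h4))

theorem UAb.mem_Z (hS : IsPGroup p S) (h : UAb p S A) {x : Ω} (hx : x ∈ S) (hxA : x ∉ A) {z : Ω} :
    z ∈ Zs S ↔ z ∈ A ∧ z * x = x * z := by
  constructor
  · intro hz
    exact ⟨h.Z_le hS hz, ((mem_Zs.1 hz).2 x hx).symm⟩
  · rintro ⟨hzA, hzx⟩
    rw [mem_Zs]
    refine ⟨h.le hzA, fun s hs => ?_⟩
    obtain ⟨n, a, ha, rfl⟩ := h.gen hS hx hxA hs
    have h1 : Commute a z := h.comm a ha z hzA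
    have h2 : Commute (x ^ n) z := Commute.zpow_left (Commute.symm hzx) n
    exact Commute.mul_left h1 h2

/-- `a ↦ [a, x]` on `A` -/
def dl (hS : IsPGroup p S) (h : UAb p S A) {x : Ω} (hx : x ∈ S) : A →* Ω where
  toFun a := a * x * (a : Ω)⁻¹ * x⁻¹
  map_one' := by simp
  map_mul' := by
    rintro ⟨a, ha⟩ ⟨b, hb⟩
    show a * b * x * (a * b)⁻¹ * x⁻¹ = a * x * a⁻¹ * x⁻¹ * (b * x * b⁻¹ * x⁻¹)
    have h1 : x * a⁻¹ * x⁻¹ ∈ A := h.nrm hS hx (A.inv_mem ha)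
    have h2 : b * (x * b⁻¹ * x⁻¹) ∈ A := A.mul_mem hb (h.nrm hS hx (A.inv_mem hb))
    have h3 := h.comm _ h2 _ h1
    calc a * b * x * (a * b)⁻¹ * x⁻¹ = a * ((b * (x * b⁻¹ * x⁻¹)) * (x * a⁻¹ * x⁻¹)) := by group
      _ = a * ((x * a⁻¹ * x⁻¹) * (b * (x * b⁻¹ * x⁻¹))) := by rw [h3]
      _ = _ := by group

theorem dl_apply (hS : IsPGroup p S) (h : UAb p S A) {x : Ω} (hx : x ∈ S) (a : A) :
    dl hS h hx a = a * x * (a : Ω)⁻¹ * x⁻¹ := rfl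

/-- `[K, x]` for `K ≤ A` -/
def br (hS : IsPGroup p S) (h : UAb p S A) {x : Ω} (hx : x ∈ S) (K : Subgroup Ω) : Subgroup Ω :=
  (K.subgroupOf A).map (dl hS h hx)

theorem mem_br (hS : IsPGroup p S) (h : UAb p S A) {x : Ω} (hx : x ∈ S) {y : Ω} :
    y ∈ br hS h hx K ↔ ∃ a ∈ A, a ∈ K ∧ a * x * a⁻¹ * x⁻¹ = y := by
  unfold br
  rw [Subgroup.mem_map]
  constructor
  · rintro ⟨a, ha, rfl⟩
    exact ⟨a, a.2, ha, rfl⟩
  · rintro ⟨a, ha, haK, rfl⟩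
    exact ⟨⟨a, ha⟩, haK, rfl⟩

theorem ker_dl (hS : IsPGroup p S) (h : UAb p S A) {x : Ω} (hx : x ∈ S) (hxA : x ∉ A) :
    (dl hS h hx).ker = (Zs S).subgroupOf A := by
  ext ⟨a, ha⟩
  rw [MonoidHom.mem_ker, dl_apply, Subgroup.mem_subgroupOf, h.mem_Z hS hx hxA]
  constructor
  · intro h1
    refine ⟨ha, ?_⟩
    have h2 : a * x * a⁻¹ * x⁻¹ = 1 := h1
    have h3 := congrArg (fun t => t * x * a) h2
    simpa [mul_assoc] using h3
  · rintro ⟨-, h1⟩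
    show a * x * a⁻¹ * x⁻¹ = 1
    rw [h1]; group

/-- `|[K,x]| · |K ∩ Z| = |K|` -/
theorem card_br (hS : IsPGroup p S) (h : UAb p S A) {x : Ω} (hx : x ∈ S) (hxA : x ∉ A) (hK : K ≤ A) :
    Nat.card (br hS h hx K) * Nat.card ↥(Zs S ⊓ K) = Nat.card K := by
  haveI : Finite A := finite_of_le h.le
  haveI : Finite K := finite_of_le hK
  have h1 := Subgroup.relIndex_ker (dl hS h hx) (K := K.subgroupOf A)
  rw [ker_dl hS h hx hxA] at h1
  have h2 : ((Zs S).subgroupOf A).relIndex (K.subgroupOf A) = (Zs S).relIndex K := Subgroup.relIndex_subgroupOf hK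
  rw [h2] at h1
  have h3 : Nat.card (br hS h hx K) = (Zs S ⊓ K).relIndex K := by
    rw [Subgroup.inf_relIndex_right, h1]; rfl
  rw [h3, mul_comm]
  exact card_rel inf_le_right

theorem card_br' (hS : IsPGroup p S) (h : UAb p S A) {x : Ω} (hx : x ∈ S) (hxA : x ∉ A) (hK : K ≤ A) (hZ : Zs S ≤ K) :
    Nat.card (br hS h hx K) * Nat.card ↥(Zs S) = Nat.card K := by
  have := card_br hS h hx hxA hK
  rwa [inf_eq_left.2 hZ] at this

theorem br_comm_mem (hS : IsPGroup p S) (h : UAb p S A) {x : Ω} (hx : x ∈ S) (n : ℕ) :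
    ∀ a ∈ A, a * x ^ n * a⁻¹ * (x ^ n)⁻¹ ∈ br hS h hx A := by
  induction n with
  | zero => intro a _; simp [Subgroup.one_mem]
  | succ n ih =>
    intro a ha
    have h1 := ih _ (h.nrm hS hx ha)
    have h2 : a * x * a⁻¹ * x⁻¹ ∈ br hS h hx A := (mem_br hS h hx).2 ⟨a, ha, ha, rfl⟩
    have h3 := (br hS h hx A).mul_mem h2 h1
    have h4 : a * x * a⁻¹ * x⁻¹ * (x * a * x⁻¹ * x ^ n * (x * a * x⁻¹)⁻¹ * (x ^ n)⁻¹)
        = a * x ^ (n + 1) * a⁻¹ * (x ^ (n + 1))⁻¹ := by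
      have e1 : x⁻¹ * x ^ n = x ^ n * x⁻¹ := by group
      calc a * x * a⁻¹ * x⁻¹ * (x * a * x⁻¹ * x ^ n * (x * a * x⁻¹)⁻¹ * (x ^ n)⁻¹)
          = a * x * (x⁻¹ * x ^ n) * x * a⁻¹ * x⁻¹ * (x ^ n)⁻¹ := by group
        _ = a * x * (x ^ n * x⁻¹) * x * a⁻¹ * x⁻¹ * (x ^ n)⁻¹ := by rw [e1]
        _ = _ := by rw [pow_succ']; group
    rwa [h4] at h3

theorem br_comm_zmem (hS : IsPGroup p S) (h : UAb p S A) {x : Ω} (hx : x ∈ S) (n : ℤ) {a : Ω} (ha : a ∈ A) :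
    a * x ^ n * a⁻¹ * (x ^ n)⁻¹ ∈ br hS h hx A := by
  have hz : (⟨x, hx⟩ : S) ^ n ∈ Submonoid.powers (⟨x, hx⟩ : S) :=
    mem_powers_iff_mem_zpowers.2 ⟨n, rfl⟩
  obtain ⟨k, hk⟩ := hz
  have h1 : x ^ k = x ^ n := by simpa using congrArg Subtype.val hk
  rw [← h1]
  exact br_comm_mem hS h hx k a ha

/-- `S' = [A, x]` -/
theorem br_eq (hS : IsPGroup p S) (h : UAb p S A) {x : Ω} (hx : x ∈ S) (hxA : x ∉ A) : ⁅S, S⁆ = br hS h hx A := by
  apply le_antisymm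
  · rw [Subgroup.commutator_le]
    intro s hs t ht
    obtain ⟨i, a, ha, rfl⟩ := h.gen hS hx hxA hs
    obtain ⟨j, b, hb, rfl⟩ := h.gen hS hx hxA ht
    have h1 := br_comm_zmem hS h hx j ha
    have h2 := br_comm_zmem hS h hx i hb
    have e0 : x ^ i * x ^ j = x ^ j * x ^ i := by rw [← zpow_add, ← zpow_add, add_comm]
    have hA1 : x ^ i * b * (x ^ i)⁻¹ ∈ A := h.nrm hS (S.zpow_mem hx i) hb
    have hA2 : x ^ j * a⁻¹ * (x ^ j)⁻¹ ∈ A := h.nrm hS (S.zpow_mem hx j) (A.inv_mem ha)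
    have e1 : ⁅a * x ^ i, b * x ^ j⁆ = (a * x ^ j * a⁻¹ * (x ^ j)⁻¹) * (b * x ^ i * b⁻¹ * (x ^ i)⁻¹)⁻¹ := by
      rw [commutatorElement_def]
      calc a * x ^ i * (b * x ^ j) * (a * x ^ i)⁻¹ * (b * x ^ j)⁻¹
          = a * (x ^ i * b) * (x ^ j * (x ^ i)⁻¹) * a⁻¹ * (x ^ j)⁻¹ * b⁻¹ := by group
        _ = a * (x ^ i * b) * ((x ^ i)⁻¹ * x ^ j) * a⁻¹ * (x ^ j)⁻¹ * b⁻¹ := by
            have : x ^ j * (x ^ i)⁻¹ = (x ^ i)⁻¹ * x ^ j := by
              rw [← zpow_neg, ← zpow_add, ← zpow_add, add_comm]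
            rw [this]
        _ = a * ((x ^ i * b * (x ^ i)⁻¹) * (x ^ j * a⁻¹ * (x ^ j)⁻¹)) * b⁻¹ := by group
        _ = a * ((x ^ j * a⁻¹ * (x ^ j)⁻¹) * (x ^ i * b * (x ^ i)⁻¹)) * b⁻¹ := by rw [h.comm _ hA1 _ hA2]
        _ = _ := by group
    rw [e1]
    exact (br hS h hx A).mul_mem h1 ((br hS h hx A).inv_mem h2)
  · intro y hy
    obtain ⟨a, ha, -, rfl⟩ := (mem_br hS h hx).1 hy
    exact Subgroup.commutator_mem_commutator (h.le ha) hx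

theorem map_comm_eq (S : Subgroup Ω) : (commutator ↥S).map S.subtype = ⁅S, S⁆ := by
  rw [commutator_def, Subgroup.map_commutator, ← MonoidHom.range_eq_map, Subgroup.range_subtype]

/-- `|B| = p |A ∩ B|` for `B ≤ S`, `B ≰ A` -/
theorem UAb.card_inf (hS : IsPGroup p S) (h : UAb p S A) (hB : B ≤ S) (hBA : ¬ B ≤ A) :
    Nat.card ↥(A ⊓ B) * p = Nat.card B := by
  have hp := (Fact.out : p.Prime)
  haveI : Finite B := finite_of_le hB
  have h1 : A.relIndex B ≤ A.relIndex S := Subgroup.relIndex_le_of_le_right hB (by rw [h.idx]; exact hp.ne_zero)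
  have h2 : A.relIndex B ∣ Nat.card B := Subgroup.relIndex_dvd_card A B
  obtain ⟨n, hn⟩ := IsPGroup.iff_card.1 (hS.to_le hB)
  rw [hn] at h2
  obtain ⟨k, -, hk⟩ := (Nat.dvd_prime_pow hp).1 h2
  rw [h.idx, hk] at h1
  have h3 : A.relIndex B ≠ 1 := fun h4 => hBA (Subgroup.relIndex_eq_one.1 h4)
  rw [hk] at h3
  have h4 : k = 1 := by
    have : k ≤ 1 := by
      by_contra hk1
      have : p ^ 1 < p ^ k := Nat.pow_lt_pow_right hp.one_lt (by omega)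
      rw [pow_one] at this
      omega
    rcases k with _ | k
    · exact absurd (pow_zero p) h3
    · omega
  have h5 : A.relIndex B = p := by rw [hk, h4, pow_one]
  have h6 := card_rel (S := B) (B := A ⊓ B) inf_le_right
  rw [Subgroup.inf_relIndex_right, h5] at h6
  exact h6

/-- `Z ⟨x⟩` -/
theorem UAb.ab_Zx (hS : IsPGroup p S) (h : UAb p S A) {x : Ω} (hx : x ∈ S) :
    ∀ a ∈ Zs S ⊔ Subgroup.zpowers x, ∀ b ∈ Zs S ⊔ Subgroup.zpowers x, a * b = b * a := by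
  have h1 : Zs S ⊔ Subgroup.zpowers x ≤ Subgroup.centralizer ({x} : Set Ω) ⊓ Subgroup.centralizer (Zs S : Set Ω) := by
    refine sup_le (le_inf ?_ ?_) (le_inf ?_ ?_)
    · intro z hz
      rw [Subgroup.mem_centralizer_iff]
      rintro _ rfl
      exact (mem_Zs.1 hz).2 _ hx
    · intro z hz
      rw [Subgroup.mem_centralizer_iff]
      intro y hy
      exact (mem_Zs.1 hz).2 _ (mem_Zs.1 hy).1
    · rw [Subgroup.zpowers_le, Subgroup.mem_centralizer_iff]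
      rintro _ rfl; rfl
    · rw [Subgroup.zpowers_le, Subgroup.mem_centralizer_iff]
      intro y hy
      exact ((mem_Zs.1 hy).2 x hx).symm
  have h2 : Zs S ⊔ Subgroup.zpowers x ≤ Subgroup.centralizer ((Zs S ⊔ Subgroup.zpowers x : Subgroup Ω) : Set Ω) := by
    refine sup_le ?_ ?_
    · intro z hz
      rw [Subgroup.mem_centralizer_iff]
      intro y hy
      exact ((Subgroup.mem_centralizer_iff.1 (h1 hy).2) z hz).symm
    · rw [Subgroup.zpowers_le, Subgroup.mem_centralizer_iff]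
      intro y hy
      exact ((Subgroup.mem_centralizer_iff.1 (h1 hy).1) x rfl).symm
  intro a ha b hb
  exact (Subgroup.mem_centralizer_iff.1 (h2 hb)) a ha

theorem UAb.inf_Zx (hS : IsPGroup p S) (h : UAb p S A) {x : Ω} (hx : x ∈ S) (hxA : x ∉ A) :
    A ⊓ (Zs S ⊔ Subgroup.zpowers x) = Zs S := by
  apply le_antisymm
  · rintro a ⟨haA, ha⟩
    rw [h.mem_Z hS hx hxA]
    exact ⟨haA, h.ab_Zx hS hx a ha x (Subgroup.mem_sup_right (Subgroup.mem_zpowers x))⟩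
  · exact le_inf (h.Z_le hS) le_sup_left

theorem UAb.card_Zx (hS : IsPGroup p S) (h : UAb p S A) {x : Ω} (hx : x ∈ S) (hxA : x ∉ A) :
    Nat.card (Zs S) * p = Nat.card ↥(Zs S ⊔ Subgroup.zpowers x) := by
  have hle : Zs S ⊔ Subgroup.zpowers x ≤ S := sup_le cen_le (Subgroup.zpowers_le.2 hx)
  have := h.card_inf hS hle (fun h1 => hxA (h1 (Subgroup.mem_sup_right (Subgroup.mem_zpowers x))))
  rwa [h.inf_Zx hS hx hxA] at this

/-- `|A/Z| > p` -/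
theorem UAb.big (hS : IsPGroup p S) (h : UAb p S A) : Nat.card (Zs S) * p < Nat.card A := by
  have hp := (Fact.out : p.Prime)
  obtain ⟨x, hx, hxA⟩ := h.exists_out
  have hle : Zs S ⊔ Subgroup.zpowers x ≤ S := sup_le cen_le (Subgroup.zpowers_le.2 hx)
  haveI : Finite A := finite_of_le h.le
  haveI : Finite (Zs S) := finite_of_le cen_le
  have hxB : x ∈ Zs S ⊔ Subgroup.zpowers x := Subgroup.mem_sup_right (Subgroup.mem_zpowers x)
  have hcard := card_rel (S := A) (h.Z_le hS)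
  obtain ⟨n, hn⟩ := IsPGroup.iff_card.1 (hS.to_le h.le)
  obtain ⟨k, -, hk⟩ := (Nat.dvd_prime_pow hp).1 (hn ▸ Subgroup.relIndex_dvd_card (Zs S) A)
  rw [hk] at hcard
  rcases k with _ | _ | k
  · exfalso
    rw [pow_zero, mul_one] at hcard
    have h1 : Zs S = A := eq_of_le_of_card_le (h.Z_le hS) hcard.ge
    -- then A is central
    obtain ⟨a, ha, b, hb, hab⟩ := h.na
    apply hab
    have h2 : ∀ s ∈ S, s ∈ Zs S ⊔ Subgroup.zpowers x := by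
      intro s hs
      obtain ⟨n, c, hc, rfl⟩ := h.gen hS hx hxA hs
      exact Subgroup.mul_mem _ (Subgroup.mem_sup_left (h1 ▸ hc))
        (Subgroup.zpow_mem _ hxB n)
    exact h.ab_Zx hS hx a (h2 a ha) b (h2 b hb)
  · exfalso
    rw [zero_add, pow_one] at hcard
    have h1 := h.card_Zx hS hx hxA
    rw [hcard] at h1
    have h2 := card_rel hle
    rw [← h1] at h2
    have h3 := h.card
    have h4 : (Zs S ⊔ Subgroup.zpowers x).relIndex S = p := by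
      have : Nat.card A * (Zs S ⊔ Subgroup.zpowers x).relIndex S = Nat.card A * p := by rw [h2, h3]
      exact Nat.eq_of_mul_eq_mul_left Nat.card_pos this
    have h5 := h.uniq _ hle (h.ab_Zx hS hx) h4
    exact hxA (h5 ▸ hxB)
  · rw [← hcard]
    apply Nat.mul_lt_mul_of_pos_left _ Nat.card_pos
    calc p = p ^ 1 := (pow_one p).symm
      _ < p ^ (k + 1 + 1) := Nat.pow_lt_pow_right hp.one_lt (by omega)

/-! second centre -/

theorem Z_le_Z2 : Zs S ≤ Z2s S := fun z hz => by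
  rw [mem_Z2s]
  refine ⟨(mem_Zs.1 hz).1, fun s hs => ?_⟩
  rw [← (mem_Zs.1 hz).2 s hs]
  have : s * z * z⁻¹ * s⁻¹ = 1 := by group
  rw [this]; exact (Zs S).one_mem

theorem Z2_le : Z2s S ≤ S := fun z hz => (mem_Z2s.1 hz).1

theorem UAb.mem_Z2 (hS : IsPGroup p S) (h : UAb p S A) {x : Ω} (hx : x ∈ S) (hxA : x ∉ A) {a : Ω} (ha : a ∈ A) :
    a ∈ Z2s S ↔ a * x * a⁻¹ * x⁻¹ ∈ Zs S := by
  rw [mem_Z2s]
  constructor
  · rintro ⟨-, h1⟩; exact h1 x hx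
  · intro h1
    refine ⟨h.le ha, ?_⟩
    -- the set of s with [a,s] ∈ Z is a subgroup
    have h2 : ∀ s ∈ S, a * s * a⁻¹ * s⁻¹ ∈ Zs S → ∀ t ∈ S, a * t * a⁻¹ * t⁻¹ ∈ Zs S →
        a * (s * t) * a⁻¹ * (s * t)⁻¹ ∈ Zs S := by
      intro s hs h3 t ht h4
      have h5 : a * (s * t) * a⁻¹ * (s * t)⁻¹ = (a * s * a⁻¹ * s⁻¹) * (s * (a * t * a⁻¹ * t⁻¹) * s⁻¹) := by group
      rw [h5, (mem_Zs.1 h4).2 s hs, mul_inv_cancel_right]
      exact (Zs S).mul_mem h3 h4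
    have h2' : ∀ s ∈ S, a * s * a⁻¹ * s⁻¹ ∈ Zs S → a * s⁻¹ * a⁻¹ * s⁻¹⁻¹ ∈ Zs S := by
      intro s hs h3
      have h4 := (Zs S).inv_mem h3
      have h5 : a * s⁻¹ * a⁻¹ * s⁻¹⁻¹ = s⁻¹ * (a * s * a⁻¹ * s⁻¹)⁻¹ * s := by group
      rw [h5, (mem_Zs.1 h4).2 s⁻¹ (S.inv_mem hs), inv_mul_cancel_right]
      exact h4
    let T : Subgroup Ω :=
      { carrier := {s | s ∈ S ∧ a * s * a⁻¹ * s⁻¹ ∈ Zs S}
        one_mem' := ⟨S.one_mem, by simp [Subgroup.one_mem]⟩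
        mul_mem' := fun {s t} hs ht => ⟨S.mul_mem hs.1 ht.1, h2 s hs.1 hs.2 t ht.1 ht.2⟩
        inv_mem' := fun {s} hs => ⟨S.inv_mem hs.1, h2' s hs.1 hs.2⟩ }
    intro s hs
    obtain ⟨n, b, hb, rfl⟩ := h.gen hS hx hxA hs
    have hbT : b ∈ T := ⟨h.le hb, by
      have : a * b * a⁻¹ * b⁻¹ = 1 := by rw [h.comm a ha b hb]; group
      rw [this]; exact (Zs S).one_mem⟩
    have hxT : x ∈ T := ⟨hx, h1⟩
    exact (T.mul_mem hbT (T.zpow_mem hxT n)).2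

/-- if `Z₂ ≰ A` then `A ≤ Z₂` -/
theorem UAb.Z2_dich (hS : IsPGroup p S) (h : UAb p S A) (hn : ¬ Z2s S ≤ A) : A ≤ Z2s S := by
  obtain ⟨y, hy, hyA⟩ := SetLike.not_le_iff_exists.1 hn
  have hyS := Z2_le hy
  intro a ha
  rw [h.mem_Z2 hS hyS hyA ha]
  have h1 := (mem_Z2s.1 hy).2 a (h.le ha)
  have h2 := (Zs S).inv_mem h1
  have h3 : (y * a * y⁻¹ * a⁻¹)⁻¹ = a * y * a⁻¹ * y⁻¹ := by group
  rwa [h3] at h2

/-- `|Z₂ ∩ A| = |Z| |Z ∩ S'|` -/
theorem UAb.card_Z2 (hS : IsPGroup p S) (h : UAb p S A) :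
    Nat.card ↥(Zs S ⊓ ⁅S, S⁆) * Nat.card (Zs S) = Nat.card ↥(A ⊓ Z2s S) := by
  obtain ⟨x, hx, hxA⟩ := h.exists_out
  have h1 := card_br' hS h hx hxA (K := A ⊓ Z2s S) inf_le_left (le_inf (h.Z_le hS) Z_le_Z2)
  rw [← h1]
  have h2 : br hS h hx (A ⊓ Z2s S) = Zs S ⊓ ⁅S, S⁆ := by
    rw [br_eq hS h hx hxA]
    ext y
    rw [mem_br, Subgroup.mem_inf, mem_br]
    constructor
    · rintro ⟨a, ha, ⟨-, h3⟩, rfl⟩
      exact ⟨(h.mem_Z2 hS hx hxA ha).1 h3, a, ha, ha, rfl⟩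
    · rintro ⟨h3, a, ha, -, rfl⟩
      exact ⟨a, ha, ⟨ha, (h.mem_Z2 hS hx hxA ha).2 h3⟩, rfl⟩
  rw [h2]

/-- `|S'| |Z| = |A|` -/
theorem UAb.card_comm (hS : IsPGroup p S) (h : UAb p S A) :
    Nat.card ↥⁅S, S⁆ * Nat.card (Zs S) = Nat.card A := by
  obtain ⟨x, hx, hxA⟩ := h.exists_out
  rw [br_eq hS h hx hxA]
  exact card_br' hS h hx hxA le_rfl (h.Z_le hS)

theorem UAb.comm_le (hS : IsPGroup p S) (h : UAb p S A) : ⁅S, S⁆ ≤ A := by
  rw [Subgroup.commutator_le]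
  intro s hs t ht
  exact h.comm_mem hS hs ht

end basic

end Cfsg.Agent.H1.Ua
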