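import Mathlib
import Cfsg.Agent.H1_UaA

set_option autoImplicit false
set_option linter.all false

/-! Essential subgroups over `p`-groups with a unique abelian subgroup of index `p`. -/

namespace Cfsg.Agent.H1.Ua

open Cfsg Cfsg.FusionSystem Cfsg.Agent.H27.Fus Cfsg.Agent.H27.Grp Cfsg.Agent.H1.FusA
open scoped commutatorElement

universe u
variable {Ω : Type u} [Group Ω] {S A B K L P : Subgroup Ω} {p : ℕ} {F : FusionSystem S}

section ess

variable [Fact p.Prime] [Finite S]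

theorem ess_not_le (h : UAb p S A) (hP : F.IsEssential p P) (hPA : P ≠ A) : ¬ P ≤ A := by
  intro hle
  apply hPA
  refine le_antisymm hle ?_
  refine le_trans ?_ (IsCentric.cen_le hP.1)
  intro a ha
  rw [mem_cen]
  exact ⟨h.le ha, fun y hy => h.comm y (hle hy) a ha⟩

/-- elements of `P` -/
theorem UAb.mem_P (hS : IsPGroup p S) (h : UAb p S A) (hPS : P ≤ S) {x : Ω} (hx : x ∈ P) (hxA : x ∉ A) {y : Ω} (hy : y ∈ P) :
    ∃ n : ℤ, ∃ a ∈ A ⊓ P, y = a * x ^ n := by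
  obtain ⟨n, a, ha, rfl⟩ := h.gen hS (hPS hx) hxA (hPS hy)
  refine ⟨n, a, ⟨ha, ?_⟩, rfl⟩
  have := P.mul_mem hy (P.inv_mem (P.zpow_mem hx n))
  rwa [mul_inv_cancel_right] at this

theorem UAb.eq_sup (hS : IsPGroup p S) (h : UAb p S A) (hPS : P ≤ S) {x : Ω} (hx : x ∈ P) (hxA : x ∉ A) :
    P = (A ⊓ P) ⊔ Subgroup.zpowers x := by
  apply le_antisymm
  · intro y hy
    obtain ⟨n, a, ha, rfl⟩ := h.mem_P hS hPS hx hxA hy
    exact Subgroup.mul_mem _ (Subgroup.mem_sup_left ha) (Subgroup.zpow_mem _ (Subgroup.mem_sup_right (Subgroup.mem_zpowers x)) n)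
  · exact sup_le inf_le_right (Subgroup.zpowers_le.2 hx)

theorem UAb.mem_nrm_iff (hS : IsPGroup p S) (h : UAb p S A) (hPS : P ≤ S) {x : Ω} (hx : x ∈ P) (hxA : x ∉ A)
    {a : Ω} (ha : a ∈ A) : a ∈ normalizerIn S P ↔ a * x * a⁻¹ * x⁻¹ ∈ P := by
  constructor
  · intro h1
    exact P.mul_mem (nrm_conj_mem h1 hx) (P.inv_mem hx)
  · intro h1
    have h2 : a * x * a⁻¹ ∈ P := by
      have := P.mul_mem h1 hx
      rwa [inv_mul_cancel_right] at this
    refine mem_nrm_of_forall hPS (h.le ha) ?_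
    intro y hy
    obtain ⟨n, b, hb, rfl⟩ := h.mem_P hS hPS hx hxA hy
    have h3 : a * (b * x ^ n) * a⁻¹ = b * (a * x * a⁻¹) ^ n := by
      rw [conj_zpow]
      calc a * (b * x ^ n) * a⁻¹ = (a * b) * x ^ n * a⁻¹ := by group
        _ = (b * a) * x ^ n * a⁻¹ := by rw [h.comm a ha b hb.1]
        _ = _ := by group
    rw [h3]
    exact P.mul_mem hb.2 (P.zpow_mem h2 n)

/-- `[A ∩ N(P), x] = P ∩ S'` -/
theorem UAb.br_nrm (hS : IsPGroup p S) (h : UAb p S A) (hPS : P ≤ S) {x : Ω} (hx : x ∈ P) (hxA : x ∉ A) :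
    br hS h (hPS hx) (A ⊓ normalizerIn S P) = P ⊓ ⁅S, S⁆ := by
  rw [br_eq hS h (hPS hx) hxA]
  ext y
  rw [mem_br, Subgroup.mem_inf, mem_br]
  constructor
  · rintro ⟨a, ha, ⟨-, h3⟩, rfl⟩
    exact ⟨(h.mem_nrm_iff hS hPS hx hxA ha).1 h3, a, ha, ha, rfl⟩
  · rintro ⟨h3, a, ha, -, rfl⟩
    exact ⟨a, ha, ⟨ha, (h.mem_nrm_iff hS hPS hx hxA ha).2 h3⟩, rfl⟩

theorem Z_le_ess (hP : F.IsEssential p P) : Zs S ≤ P := zc_le hP.1

omit [Fact p.Prime] [Finite S] in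
theorem rel_ne {G : Type*} [Group G] {H K : Subgroup G} [Finite K] : H.relIndex K ≠ 0 :=
  Subgroup.index_ne_zero_of_finite

theorem card_pow_ge {H K : Subgroup Ω} [Finite K] (hK : IsPGroup p K) (hHK : H ≤ K) (hne : H ≠ K) :
    Nat.card H * p ≤ Nat.card K := by
  have hp := (Fact.out : p.Prime)
  have h1 := card_rel hHK
  obtain ⟨n, hn⟩ := IsPGroup.iff_card.1 hK
  obtain ⟨k, -, hk⟩ := (Nat.dvd_prime_pow hp).1 (hn ▸ Subgroup.relIndex_dvd_card H K)
  rw [← h1, hk]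
  apply Nat.mul_le_mul_left
  rcases k with _ | k
  · exfalso
    rw [pow_zero] at hk
    exact hne (le_antisymm hHK (Subgroup.relIndex_eq_one.1 hk))
  · exact Nat.le_self_pow k.succ_ne_zero p

theorem nrm_gt (hS : IsPGroup p S) (hF : F.IsSaturated p) (hP : F.IsEssential p P) :
    Nat.card P * p ≤ Nat.card (normalizerIn S P) := by
  have hlt := essential_lt hS hF hP
  obtain ⟨s, hs, hsP, hsN⟩ := exists_mem_normalizer_of_lt hS hlt
  haveI : Finite (normalizerIn S P) := fin_nrm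
  refine card_pow_ge (hS.to_le nrm_le) (le_nrm hlt.le) fun he => hsP ?_
  rw [he]; exact ⟨hs, hsN⟩

/-! the abelian case -/

theorem ess_ab_inf (hS : IsPGroup p S) (h : UAb p S A) (hP : F.IsEssential p P) {x : Ω}
    (hx : x ∈ P) (hxA : x ∉ A) (hab : ∀ a ∈ P, ∀ b ∈ P, a * b = b * a) : A ⊓ P = Zs S := by
  apply le_antisymm
  · rintro a ⟨ha, haP⟩
    rw [h.mem_Z hS (hP.1.1 hx) hxA]
    exact ⟨ha, hab a haP x hx⟩
  · exact le_inf (h.Z_le hS) (Z_le_ess hP)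

theorem St2_sup {D : Subgroup Ω} (hS : IsPGroup p S) (hPS : P ≤ S) {X : Subgroup (MulAut P)} (hX : IsPGroup p X)
    (hfix : ∀ β ∈ X, ∀ y : P, (y : Ω) ∈ D → β y = y) (hXF : X ≤ F.autGroup P) : IsPGroup p ↥(X ⊔ St2 F P D) := by
  have hn : X ≤ Subgroup.normalizer (St2 F P D : Set (MulAut P)) := by
    refine le_normalizer_of fun β hβ κ hκ => ?_
    have hβi : ∀ y : P, (y : Ω) ∈ D → β⁻¹ y = y := hfix _ (X.inv_mem hβ)
    obtain ⟨h1, h2, h3⟩ := hκ
    refine ⟨Subgroup.mul_mem _ (Subgroup.mul_mem _ (hXF hβ) h1) (Subgroup.inv_mem _ (hXF hβ)), fun y => ?_, fun y hy => ?_⟩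
    · have h4 := h2 (β⁻¹ y)
      have h5 : β ((β⁻¹ y)⁻¹ * κ (β⁻¹ y)) = (β⁻¹ y)⁻¹ * κ (β⁻¹ y) := hfix β hβ _ h4
      rw [map_mul, map_inv, MulAut.apply_inv_self] at h5
      have h6 : (β * κ * β⁻¹) y = β (κ (β⁻¹ y)) := rfl
      have h7 := congrArg Subtype.val h5
      rw [h6]
      have h8 : (y : Ω)⁻¹ * (β (κ (β⁻¹ y)) : P) = ((β⁻¹ y)⁻¹ * κ (β⁻¹ y) : P) := h7
      rw [h8]
      exact h4
    · show β (κ (β⁻¹ y)) = y
      rw [hβi y hy, h3 y hy, hfix β hβ y hy]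
  exact IsPGroup.to_sup_of_normal_right' hX (isPGroup_St2 hS hPS D) hn

/-- key: the strongly embedded subgroup forces `|N_A(P) : Z| ≤ p` when `P` is abelian -/
theorem ess_ab_key (hS : IsPGroup p S) (hF : F.IsSaturated p) (h : UAb p S A) (hP : F.IsEssential p P) {x : Ω}
    (hx : x ∈ P) (hxA : x ∉ A) (hab : ∀ a ∈ P, ∀ b ∈ P, a * b = b * a) {φ : MulAut P} (hφ : φ ∈ F.autGroup P)
    (hφH : φ ∉ Hext F P) {a : Ω} (haA : a ∈ A) (haN : a ∈ normalizerIn S P)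
    (haD : a * x * a⁻¹ * x⁻¹ ∈ Zs S ⊓ im (Zs S) (totA φ)) : a ∈ Zs S := by
  have hPS := hP.1.1
  have hZP := Z_le_ess hP
  haveI : Finite P := finite_of_le hPS
  haveI hfA : Finite (F.autGroup P) := finite_autGroup hPS
  set D := Zs S ⊓ im (Zs S) (totA φ) with hD
  have hφi := (mem_autGroup_iff hPS).1 hφ
  have hsyl : IsSyl p (autInducedBy S P) (F.autGroup P) := (isFullyAutomized_iff.1 (fn_automized hS hF hP.2.1)).2
  have hfix1 : ∀ β ∈ autInducedBy S P, ∀ y : P, (y : Ω) ∈ Zs S → β y = y := by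
    intro β hβ y hy
    obtain ⟨s, hs, hsβ⟩ := mem_autInducedBy.1 hβ
    apply Subtype.ext
    rw [hsβ, cen_comm hy hs]; group
  have hmem : ∀ y : P, (y : Ω) ∈ im (Zs S) (totA φ) → ((φ⁻¹ y : P) : Ω) ∈ Zs S := by
    intro y hy
    obtain ⟨z, hz, hzy⟩ := (hφi.map.mono hZP).mem_im.1 hy
    rw [totA_of_mem _ (hZP hz)] at hzy
    have : φ ⟨z, hZP hz⟩ = y := Subtype.ext hzy
    rw [← this, MulAut.inv_apply_self]; exact hz
  have hsyl2 : IsSyl p (cj φ (autInducedBy S P)) (F.autGroup P) := hsyl.cj_mem hφ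
  have hK2 : St2 F P D ≤ cj φ (autInducedBy S P) := by
    have h1 := St2_sup (F := F) (D := D) hS hPS hsyl2.isPGroup ?_ hsyl2.le
    · rw [hsyl2.eq_of_le (sup_le hsyl2.le (show St2 F P D ≤ F.autGroup P from fun β hβ => hβ.1)) h1 le_sup_left]
      exact le_sup_right
    · rintro _ ⟨β, hβ, rfl⟩ y hy
      show φ (β (φ⁻¹ y)) = y
      rw [hfix1 β hβ _ (hmem y hy.2), MulAut.apply_inv_self]
  have haK : cjA P a haN.2 ∈ St2 F P D := by
    refine ⟨hsyl.le (cjA_mem haN.2 haN.1), fun y => ?_, fun y hy => ?_⟩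
    · rw [cjA_apply]
      obtain ⟨n, b, hb, hy⟩ := h.mem_P hS hPS hx hxA y.2
      have h1 : a * y * a⁻¹ = (a * x * a⁻¹ * x⁻¹) ^ n * y := by
        have hc : Commute (a * x * a⁻¹ * x⁻¹) x := hab _ (hZP haD.1) x hx
        have h2 : a * x * a⁻¹ = (a * x * a⁻¹ * x⁻¹) * x := by group
        have h3 : a * x ^ n * a⁻¹ = (a * x * a⁻¹ * x⁻¹) ^ n * x ^ n := by
          rw [← conj_zpow, h2, hc.mul_zpow]
          congr 2
          group
        have hcb : Commute ((a * x * a⁻¹ * x⁻¹) ^ n) b := Commute.zpow_left (hab _ (hZP haD.1) b hb.2) n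
        rw [hy]
        calc a * (b * x ^ n) * a⁻¹ = (a * b) * x ^ n * a⁻¹ := by group
          _ = (b * a) * x ^ n * a⁻¹ := by rw [h.comm a haA b hb.1]
          _ = b * (a * x ^ n * a⁻¹) := by group
          _ = b * ((a * x * a⁻¹ * x⁻¹) ^ n * x ^ n) := by rw [h3]
          _ = (b * (a * x * a⁻¹ * x⁻¹) ^ n) * x ^ n := (mul_assoc _ _ _).symm
          _ = ((a * x * a⁻¹ * x⁻¹) ^ n * b) * x ^ n := by rw [hcb.eq]
          _ = _ := mul_assoc _ _ _
      rw [h1]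
      have h4 : ((a * x * a⁻¹ * x⁻¹) ^ n) * y = y * (a * x * a⁻¹ * x⁻¹) ^ n :=
        hab _ (P.zpow_mem (hZP haD.1) n) y y.2
      rw [h4, inv_mul_cancel_left]
      exact D.zpow_mem haD n
    · apply Subtype.ext
      rw [cjA_apply, cen_comm hy.1 haN.1]; group
  obtain ⟨β, hβ, hβa⟩ := hK2 haK
  obtain ⟨t, ht, htβ⟩ := mem_autInducedBy.1 hβ
  have htN : t ∈ normalizerIn S P := ⟨ht, autInducedBy_norm (K := S) htβ⟩
  have hβa' : φ * β * φ⁻¹ = cjA P a haN.2 := hβa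
  by_cases htP : t ∈ P
  · have h1 : β = 1 := by
      ext y
      rw [htβ, hab t htP y y.2]; simp
    rw [h1, mul_one, mul_inv_cancel] at hβa'
    have h2 := congrArg (fun γ : MulAut P => (γ ⟨x, hx⟩ : Ω)) hβa'
    have h3 : x = a * x * a⁻¹ := h2
    rw [h.mem_Z hS (hPS hx) hxA]
    refine ⟨haA, ?_⟩
    have h4 := congrArg (fun u => u * a) h3
    simpa using h4.symm
  · exfalso
    apply hφH
    refine extends_of (fn_receptive hS hF hP.2.1) hφ htN htP haN.1 fun y => ?_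
    have h1 : (⟨t * y * t⁻¹, nrm_conj_mem htN y.2⟩ : P) = β y := Subtype.ext (htβ y).symm
    rw [h1]
    have h2 : φ (β y) = (φ * β * φ⁻¹) (φ y) := by
      show φ (β y) = φ (β (φ⁻¹ (φ y)))
      rw [MulAut.inv_apply_self]
    rw [h2, hβa', cjA_apply]

theorem ess_exists_out (hS : IsPGroup p S) (hF : F.IsSaturated p) (hP : F.IsEssential p P) :
    ∃ φ ∈ F.autGroup P, φ ∉ Hext F P := by
  by_contra hc
  push Not at hc
  exact Hext_ne_of_essential hS hF hP (le_antisymm (Hext_le hP.1.1) hc)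

theorem ess_ab_card (hS : IsPGroup p S) (hF : F.IsSaturated p) (h : UAb p S A) (hP : F.IsEssential p P) {x : Ω}
    (hx : x ∈ P) (hxA : x ∉ A) (hab : ∀ a ∈ P, ∀ b ∈ P, a * b = b * a) :
    Nat.card ↥(A ⊓ normalizerIn S P) ≤ Nat.card (Zs S) * p := by
  obtain ⟨φ, hφ, hφH⟩ := ess_exists_out hS hF hP
  have hPS := hP.1.1
  have hZP := Z_le_ess hP
  haveI : Finite P := finite_of_le hPS
  haveI : Finite A := finite_of_le h.le
  haveI : Finite (Zs S) := finite_of_le cen_le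
  have hφi := (mem_autGroup_iff hPS).1 hφ
  set D := Zs S ⊓ im (Zs S) (totA φ) with hD
  set M := A ⊓ normalizerIn S P with hM
  haveI : Finite M := finite_of_le (inf_le_left : M ≤ A)
  have hMA : M ≤ A := inf_le_left
  have hZM : Zs S ≤ M := le_inf (h.Z_le hS) (hZP.trans (le_nrm hPS))
  -- `|M : Z| ≤ |Z : D|`
  have h1 : (Zs S).relIndex M ≤ D.relIndex (Zs S) := by
    have e1 := Subgroup.relIndex_comap D (dl hS h (hPS hx)) (M.subgroupOf A)
    have e2 : (D.comap (dl hS h (hPS hx)) ⊓ M.subgroupOf A).relIndex (M.subgroupOf A) =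
        (D.comap (dl hS h (hPS hx))).relIndex (M.subgroupOf A) := Subgroup.inf_relIndex_right _ _
    have e3 : (D.comap (dl hS h (hPS hx)) ⊓ M.subgroupOf A) ≤ (Zs S).subgroupOf A := by
      rintro a ⟨ha, haM⟩
      exact ess_ab_key hS hF h hP hx hxA hab hφ hφH a.2 haM.2 ha
    have e4 : ((Zs S).subgroupOf A).relIndex (M.subgroupOf A) ≤
        (D.comap (dl hS h (hPS hx)) ⊓ M.subgroupOf A).relIndex (M.subgroupOf A) :=
      Subgroup.relIndex_le_of_le_left e3 rel_ne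
    rw [Subgroup.relIndex_subgroupOf hMA, e2, e1] at e4
    refine e4.trans ?_
    refine Subgroup.relIndex_le_of_le_right ?_ rel_ne
    have e5 : (M.subgroupOf A).map (dl hS h (hPS hx)) = br hS h (hPS hx) M := rfl
    rw [e5, hM, h.br_nrm hS hPS hx hxA]
    rw [← ess_ab_inf hS h hP hx hxA hab]
    exact le_inf (inf_le_right.trans (h.comm_le hS)) inf_le_left
  have h2 : D.relIndex (Zs S) ≤ p := by
    rw [hD, Subgroup.inf_relIndex_left]
    have hmZ := hφi.map.mono hZP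
    have e1 : im (Zs S) (totA φ) ≤ P := by
      intro y hy
      obtain ⟨z, hz, rfl⟩ := hmZ.mem_im.1 hy
      exact hφi.maps z (hZP hz)
    have e2 := card_rel e1
    rw [hmZ.card_im] at e2
    have e3 := h.card_inf hS hPS (ess_not_le h hP (fun hPA => hxA (hPA ▸ hx)))
    rw [ess_ab_inf hS h hP hx hxA hab] at e3
    rw [← e3] at e2
    have e4 := Nat.eq_of_mul_eq_mul_left Nat.card_pos e2
    calc (im (Zs S) (totA φ)).relIndex (Zs S) ≤ (im (Zs S) (totA φ)).relIndex P :=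
          Subgroup.relIndex_le_of_le_right hZP rel_ne
      _ = p := e4
  have h3 := card_rel hZM
  rw [← h3]
  exact Nat.mul_le_mul_left _ (h1.trans h2)

theorem ess_ab_nrm (hS : IsPGroup p S) (h : UAb p S A) (hP : F.IsEssential p P) {x : Ω}
    (hx : x ∈ P) (hxA : x ∉ A) (hab : ∀ a ∈ P, ∀ b ∈ P, a * b = b * a) :
    A ⊓ normalizerIn S P = A ⊓ Z2s S := by
  have hinf := ess_ab_inf hS h hP hx hxA hab
  ext a
  constructor
  · rintro ⟨ha, haN⟩
    refine ⟨ha, (h.mem_Z2 hS (hP.1.1 hx) hxA ha).2 ?_⟩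
    rw [← hinf]
    exact ⟨h.comm_mem hS (h.le ha) (hP.1.1 hx), (h.mem_nrm_iff hS hP.1.1 hx hxA ha).1 haN⟩
  · rintro ⟨ha, haZ⟩
    refine ⟨ha, (h.mem_nrm_iff hS hP.1.1 hx hxA ha).2 ?_⟩
    exact Z_le_ess hP ((h.mem_Z2 hS (hP.1.1 hx) hxA ha).1 haZ)

/-! the nonabelian case -/

theorem ess_nab_cen (hS : IsPGroup p S) (h : UAb p S A) (hP : F.IsEssential p P) {x : Ω}
    (hx : x ∈ P) (hxA : x ∉ A) (hnab : ¬ ∀ a ∈ P, ∀ b ∈ P, a * b = b * a) {z : Ω} (hz : z ∈ P)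
    (hzc : ∀ y ∈ P, y * z = z * y) : z ∈ Zs S := by
  have hPS := hP.1.1
  have hzA : z ∈ A := by
    by_contra hzA
    apply hnab
    have h1 : A ⊓ P ≤ Zs S := by
      rintro a ⟨ha, haP⟩
      rw [h.mem_Z hS (hPS hz) hzA]
      exact ⟨ha, hzc a haP⟩
    have h2 : P ≤ Zs S ⊔ Subgroup.zpowers x := by
      rw [h.eq_sup hS hPS hx hxA]
      exact sup_le (h1.trans le_sup_left) le_sup_right
    intro a ha b hb
    exact h.ab_Zx hS (hPS hx) a (h2 ha) b (h2 hb)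
  rw [h.mem_Z hS (hPS hx) hxA]
  exact ⟨hzA, (hzc x hx).symm⟩

theorem ess_nab_inv (hS : IsPGroup p S) (h : UAb p S A) (hP : F.IsEssential p P) {x : Ω}
    (hx : x ∈ P) (hxA : x ∉ A) (hnab : ¬ ∀ a ∈ P, ∀ b ∈ P, a * b = b * a) : AutInv F P (Zs S) := by
  intro α hα y hy
  refine ess_nab_cen hS h hP hx hxA hnab (α y).2 ?_
  intro w hw
  have h1 : α⁻¹ ⟨w, hw⟩ * y = y * α⁻¹ ⟨w, hw⟩ :=
    Subtype.ext ((mem_Zs.1 hy).2 _ (hP.1.1 (α⁻¹ ⟨w, hw⟩).2))
  have h2 := congrArg α h1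
  rw [map_mul, map_mul, MulAut.apply_inv_self] at h2
  exact congrArg Subtype.val h2

/-- the nonabelian essential subgroups -/
theorem ess_nab (hS : IsPGroup p S) (hF : F.IsSaturated p) (h : UAb p S A) (hP : F.IsEssential p P) {x : Ω}
    (hx : x ∈ P) (hxA : x ∉ A) (hnab : ¬ ∀ a ∈ P, ∀ b ∈ P, a * b = b * a) :
    Z2s S ≤ A ∧ A ⊓ P = Z2s S ∧ Nat.card (Z2s S) = Nat.card (Zs S) * p := by
  have hPS := hP.1.1
  have hZP := Z_le_ess hP
  have hPA : P ≠ A := fun hPA => hxA (hPA ▸ hx)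
  have hnle := ess_not_le h hP hPA
  haveI : Finite P := finite_of_le hPS
  haveI : Finite A := finite_of_le h.le
  haveI : Finite (Zs S) := finite_of_le cen_le
  haveI : Finite ↥(A ⊓ P) := finite_of_le (inf_le_left : A ⊓ P ≤ A)
  have hrad := essential_radical hS hP
  have hlt := essential_lt hS hF hP
  have hAnP : ¬ A ≤ P := by
    intro hAP
    apply hlt.ne
    refine le_antisymm hPS fun s hs => ?_
    obtain ⟨n, a, ha, rfl⟩ := h.gen hS (hPS hx) hxA hs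
    exact P.mul_mem (hAP ha) (P.zpow_mem hx n)
  -- an automorphism moving `A ∩ P`
  obtain ⟨α, hα, u, huA, hu⟩ : ∃ α ∈ F.autGroup P, ∃ u : P, (u : Ω) ∈ A ∧ (α u : Ω) ∉ A := by
    by_contra hcon
    push Not at hcon
    have hinv : AutInv F P A := fun α hα y hy => hcon α hα y hy
    apply hAnP
    refine le_of_radical2 hS hP.1 hrad h.le ?_ A hinv ?_
    · intro y hy
      exact (mem_nrm_of_forall h.le (hPS hy) fun a ha => h.nrm hS (hPS hy) ha).2
    · intro s hs hsN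
      refine ⟨fun y hy hyA => ?_, fun y hy => ?_⟩
      · rw [h.comm s hs y hyA]; group
      · have h1 := h.comm_mem hS (S.inv_mem (hPS hy)) (h.le hs)
        have h2 : y⁻¹ * s * y⁻¹⁻¹ * s⁻¹ = y⁻¹ * (s * y * s⁻¹) := by group
        rwa [h2] at h1
  have hi := (mem_autGroup_iff hPS).1 hα
  have hm := hi.map.mono (inf_le_right : A ⊓ P ≤ P)
  set B := im (A ⊓ P) (totA α) with hB
  have hBP : B ≤ P := by
    intro y hy
    obtain ⟨a, ha, rfl⟩ := hm.mem_im.1 hy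
    exact hi.maps a ha.2
  have hBab : ∀ a ∈ B, ∀ b ∈ B, a * b = b * a := by
    intro a ha b hb
    obtain ⟨a', ha', rfl⟩ := hm.mem_im.1 ha
    obtain ⟨b', hb', rfl⟩ := hm.mem_im.1 hb
    rw [← hm.mul ha' hb', ← hm.mul hb' ha', h.comm a' ha'.1 b' hb'.1]
  have hbB : (α u : Ω) ∈ B := by
    rw [← totA_apply]
    exact hm.apply_mem_im ⟨huA, u.2⟩
  have hABZ : A ⊓ B ≤ Zs S := by
    rintro a ⟨ha, haB⟩
    rw [h.mem_Z hS (hPS (α u).2) hu]
    exact ⟨ha, hBab a haB _ hbB⟩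
  have hBnle : ¬ B ≤ A := fun hle => hu (hle hbB)
  have hc1 := h.card_inf hS (hBP.trans hPS) hBnle
  have hc2 : Nat.card B = Nat.card ↥(A ⊓ P) := hm.card_im
  have hZne : Zs S ≠ A ⊓ P := by
    intro he
    apply hnab
    have h2 : P ≤ Zs S ⊔ Subgroup.zpowers x := by
      conv_lhs => rw [h.eq_sup hS hPS hx hxA, ← he]
    intro a ha b hb
    exact h.ab_Zx hS (hPS hx) a (h2 ha) b (h2 hb)
  have hZle : Zs S ≤ A ⊓ P := le_inf (h.Z_le hS) hZP
  have hc3 := card_pow_ge (p := p) (hS.to_le (inf_le_left.trans h.le)) hZle hZne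
  have hc4 : Nat.card ↥(A ⊓ B) ≤ Nat.card (Zs S) := card_le_of_le hABZ
  have hp := (Fact.out : p.Prime)
  have hc5 : Nat.card ↥(A ⊓ P) = Nat.card (Zs S) * p := by
    apply le_antisymm _ hc3
    rw [← hc2, ← hc1]
    exact Nat.mul_le_mul_right _ hc4
  have hc6 : A ⊓ B = Zs S := by
    apply eq_of_le_of_card_le hABZ
    rw [← hc2, ← hc1] at hc5
    exact (Nat.eq_of_mul_eq_mul_right hp.pos hc5).ge
  -- `A ∩ P ≤ Z₂`
  have hle1 : A ⊓ P ≤ Z2s S := by
    rintro a ⟨ha, haP⟩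
    rw [h.mem_Z2 hS (hPS (α u).2) hu ha, ← hc6]
    refine ⟨h.comm_mem hS (h.le ha) (hPS (α u).2), ?_⟩
    have h1 : a * (α u : Ω) * a⁻¹ ∈ B := by
      obtain ⟨a', ha', haa⟩ := hi.surj a haP
      rw [← haa, ← totA_apply, ← hi.map.conj ha' u.2]
      refine hm.apply_mem_im ⟨h.nrm hS (hPS ha') huA, P.mul_mem (P.mul_mem ha' u.2) (P.inv_mem ha')⟩
    exact B.mul_mem h1 (B.inv_mem hbB)
  -- `A ∩ Z₂ ≤ P`
  have hle2 : A ⊓ Z2s S ≤ P := by
    refine le_of_radical2 hS hP.1 hrad (inf_le_left.trans h.le) ?_ (Zs S) (ess_nab_inv hS h hP hx hxA hnab) ?_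
    · intro y hy
      refine (mem_nrm_of_forall (S := S) (inf_le_left.trans h.le) (hPS hy) fun a ha => ⟨h.nrm hS (hPS hy) ha.1, ?_⟩).2
      show y * a * y⁻¹ ∈ Z2s S
      rw [mem_Z2s]
      refine ⟨S.mul_mem (S.mul_mem (hPS hy) (h.le ha.1)) (S.inv_mem (hPS hy)), fun s hs => ?_⟩
      have h1 := (mem_Z2s.1 ha.2).2 (y⁻¹ * s * y) (S.mul_mem (S.mul_mem (S.inv_mem (hPS hy)) hs) (hPS hy))
      have h2 : y * a * y⁻¹ * s * (y * a * y⁻¹)⁻¹ * s⁻¹ = y * (a * (y⁻¹ * s * y) * a⁻¹ * (y⁻¹ * s * y)⁻¹) * y⁻¹ := by group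
      rw [h2, (mem_Zs.1 h1).2 y (hPS hy), mul_inv_cancel_right]
      exact h1
    · intro s hs hsN
      refine ⟨fun y hy hyZ => ?_, fun y hy => ?_⟩
      · rw [(mem_Zs.1 hyZ).2 s (h.le hs.1)]; group
      · have h1 := (mem_Z2s.1 hs.2).2 y (hPS hy)
        have h2 := (mem_Zs.1 h1).2 y⁻¹ (S.inv_mem (hPS hy))
        have h3 : y⁻¹ * (s * y * s⁻¹) = y⁻¹ * (s * y * s⁻¹ * y⁻¹) * y := by group
        rw [h3, h2, inv_mul_cancel_right]
        exact h1
  have hle3 : Z2s S ≤ A := by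
    by_contra hn
    exact hAnP ((le_inf le_rfl (h.Z2_dich hS hn)).trans hle2)
  have heq : A ⊓ P = Z2s S := le_antisymm hle1 (le_inf hle3 ((le_inf hle3 le_rfl).trans hle2))
  refine ⟨hle3, heq, ?_⟩
  rw [← heq]; exact hc5

/-! combined -/

theorem ess_Z2 (hS : IsPGroup p S) (hF : F.IsSaturated p) (h : UAb p S A) (hP : F.IsEssential p P) (hPA : P ≠ A) :
    Z2s S ≤ A ∧ Nat.card (Z2s S) = Nat.card (Zs S) * p := by
  have hnle := ess_not_le h hP hPA
  obtain ⟨x, hx, hxA⟩ := SetLike.not_le_iff_exists.1 hnle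
  have hPS := hP.1.1
  by_cases hab : ∀ a ∈ P, ∀ b ∈ P, a * b = b * a
  · have h1 := ess_ab_card hS hF h hP hx hxA hab
    rw [ess_ab_nrm hS h hP hx hxA hab] at h1
    have h2 : Z2s S ≤ A := by
      by_contra hn
      rw [inf_eq_left.2 (h.Z2_dich hS hn)] at h1
      exact absurd h1 (not_le.2 (h.big hS))
    refine ⟨h2, ?_⟩
    have h3 := h1
    rw [inf_eq_right.2 h2] at h3
    apply le_antisymm h3
    have h4 := nrm_gt hS hF hP
    have h5 := h.card_inf hS (B := normalizerIn S P) nrm_le (fun hle => hnle ((le_nrm hPS).trans hle))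
    have h6 := h.card_inf hS hPS hnle
    rw [ess_ab_inf hS h hP hx hxA hab] at h6
    rw [ess_ab_nrm hS h hP hx hxA hab, inf_eq_right.2 h2] at h5
    rw [← h5, ← h6] at h4
    exact Nat.le_of_mul_le_mul_right h4 (Fact.out : p.Prime).pos
  · obtain ⟨h1, h2, h3⟩ := ess_nab hS hF h hP hx hxA hab
    exact ⟨h1, h3⟩

theorem ess_card_comm (hS : IsPGroup p S) (hF : F.IsSaturated p) (h : UAb p S A) (hP : F.IsEssential p P) (hPA : P ≠ A) :
    Nat.card ↥(Zs S ⊓ ⁅S, S⁆) = p := by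
  obtain ⟨h1, h2⟩ := ess_Z2 hS hF h hP hPA
  haveI : Finite (Zs S) := finite_of_le cen_le
  have h3 := h.card_Z2 hS
  rw [inf_eq_right.2 h1, h2, mul_comm] at h3
  exact Nat.eq_of_mul_eq_mul_left Nat.card_pos h3

theorem ess_idx (hS : IsPGroup p S) (hF : F.IsSaturated p) (h : UAb p S A) (hP : F.IsEssential p P) (hPA : P ≠ A) :
    Nat.card (normalizerIn S P) = Nat.card P * p := by
  have hnle := ess_not_le h hP hPA
  obtain ⟨x, hx, hxA⟩ := SetLike.not_le_iff_exists.1 hnle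
  have hPS := hP.1.1
  obtain ⟨hZ1, hZ2⟩ := ess_Z2 hS hF h hP hPA
  apply le_antisymm _ (nrm_gt hS hF hP)
  have h5 := h.card_inf hS (B := normalizerIn S P) nrm_le (fun hle => hnle ((le_nrm hPS).trans hle))
  have h6 := h.card_inf hS hPS hnle
  rw [← h5, ← h6]
  apply Nat.mul_le_mul_right
  by_cases hab : ∀ a ∈ P, ∀ b ∈ P, a * b = b * a
  · rw [ess_ab_inf hS h hP hx hxA hab]
    exact ess_ab_card hS hF h hP hx hxA hab
  · obtain ⟨h1, h2, h3⟩ := ess_nab hS hF h hP hx hxA hab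
    have hZN : Zs S ≤ A ⊓ normalizerIn S P := le_inf (h.Z_le hS) ((Z_le_ess hP).trans (le_nrm hPS))
    have h7 := card_br' hS h (hPS hx) hxA (K := A ⊓ normalizerIn S P) inf_le_left hZN
    rw [h.br_nrm hS hPS hx hxA] at h7
    rw [← h7, h2, h3, mul_comm (Nat.card (Zs S)) p, mul_assoc, mul_comm (Nat.card (Zs S)) p, ← mul_assoc]
    apply Nat.mul_le_mul_right
    haveI : Finite ↥(P ⊓ ⁅S, S⁆) := finite_of_le (inf_le_left.trans hPS)
    haveI : Finite ↥(A ⊓ P) := finite_of_le (inf_le_right.trans hPS)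
    haveI : Finite (Zs S) := finite_of_le cen_le
    have h8 := card_rel (S := P ⊓ ⁅S, S⁆) (B := Zs S ⊓ (P ⊓ ⁅S, S⁆)) inf_le_right
    rw [Subgroup.inf_relIndex_right] at h8
    rw [← h8]
    refine Nat.mul_le_mul ?_ ?_
    · rw [← ess_card_comm hS hF h hP hPA]
      haveI : Finite ↥(Zs S ⊓ ⁅S, S⁆) := finite_of_le (inf_le_left.trans cen_le)
      exact card_le_of_le (le_inf inf_le_left (inf_le_right.trans inf_le_right))
    · have h9 := card_rel (S := A ⊓ P) (le_inf (h.Z_le hS) (Z_le_ess hP))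
      rw [h2, h3] at h9
      have h10 := Nat.eq_of_mul_eq_mul_left Nat.card_pos h9
      rw [← h10, ← h2]
      exact Subgroup.relIndex_le_of_le_right (le_inf (inf_le_right.trans (h.comm_le hS)) inf_le_left)
        rel_ne

/-- shape of the essential subgroups -/
theorem ess_shape (hS : IsPGroup p S) (hF : F.IsSaturated p) (h : UAb p S A) (hP : F.IsEssential p P) (hPA : P ≠ A) :
    (∃ x ∈ S, x ∉ A ∧ P = Zs S ⊔ Subgroup.zpowers x) ∨ (∃ x ∈ S, x ∉ A ∧ P = Z2s S ⊔ Subgroup.zpowers x) := by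
  have hnle := ess_not_le h hP hPA
  obtain ⟨x, hx, hxA⟩ := SetLike.not_le_iff_exists.1 hnle
  have hPS := hP.1.1
  by_cases hab : ∀ a ∈ P, ∀ b ∈ P, a * b = b * a
  · left
    refine ⟨x, hPS hx, hxA, ?_⟩
    rw [← ess_ab_inf hS h hP hx hxA hab]
    exact h.eq_sup hS hPS hx hxA
  · right
    obtain ⟨h1, h2, h3⟩ := ess_nab hS hF h hP hx hxA hab
    refine ⟨x, hPS hx, hxA, ?_⟩
    rw [← h2]
    exact h.eq_sup hS hPS hx hxA

end ess

end Cfsg.Agent.H1.Ua
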