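import Mathlib
import Cfsg.Agent.H1_UaB
import Cfsg.Agent.H18_CD
import Cfsg.Agent.H27_FusAlp2

set_option autoImplicit false
set_option linter.all false

/-! Counting in `p`-groups with a unique abelian subgroup of index `p`. -/

namespace Cfsg.Agent.H1.Ua

open Cfsg Cfsg.FusionSystem Cfsg.Agent.H27.Fus Cfsg.Agent.H27.Grp Cfsg.Agent.H1.FusA
open scoped commutatorElement

universe u
variable {Ω : Type u} [Group Ω] {S A B K L P : Subgroup Ω} {p : ℕ} {F : FusionSystem S}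

theorem isMulComm_iff {H : Subgroup Ω} : IsMulCommutative ↥H ↔ ∀ a ∈ H, ∀ b ∈ H, a * b = b * a := by
  constructor
  · intro h a ha b hb
    have := h.is_comm.comm (⟨a, ha⟩ : H) ⟨b, hb⟩
    exact congrArg Subtype.val this
  · intro h
    exact ⟨⟨fun a b => Subtype.ext (h a a.2 b b.2)⟩⟩

theorem UAb.of (hna : ¬ IsMulCommutative ↥S) (hA : A ≤ S ∧ IsMulCommutative ↥A ∧ (A.subgroupOf S).index = p)
    (huniq : ∀ B : Subgroup Ω, B ≤ S → IsMulCommutative ↥B → (B.subgroupOf S).index = p → B = A) : UAb p S A := by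
  refine ⟨hA.1, isMulComm_iff.1 hA.2.1, hA.2.2, fun B hB h1 h2 => huniq B hB (isMulComm_iff.2 h1) h2, ?_⟩
  by_contra hc
  push Not at hc
  exact hna (isMulComm_iff.2 hc)

/-- product formula -/
theorem card_sup_inf {H N : Subgroup Ω} (h : H ≤ Subgroup.normalizer (N : Set Ω)) :
    Nat.card ↥(H ⊔ N) * Nat.card ↥(H ⊓ N) = Nat.card H * Nat.card N := by
  refine Cfsg.Agent.H18.CD.card_sup_mul_card_inf_of_eq_mul H N ?_
  apply Set.Subset.antisymm
  · intro x hx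
    obtain ⟨a, ha, b, hb, rfl⟩ := mem_sup_nrm h hx
    exact ⟨a, ha, b, hb, rfl⟩
  · exact Cfsg.Agent.H18.CD.mul_set_subset_sup H N

section count

variable [Fact p.Prime] [Finite S]

/-- iterated commutators `[A, x; i]` -/
def Wi (hS : IsPGroup p S) (h : UAb p S A) {x : Ω} (hx : x ∈ S) (i : ℕ) : Subgroup Ω :=
  Nat.rec A (fun _ K => br hS h hx K) i

theorem Wi_zero (hS : IsPGroup p S) (h : UAb p S A) {x : Ω} (hx : x ∈ S) : Wi hS h hx 0 = A := rfl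

theorem Wi_succ (hS : IsPGroup p S) (h : UAb p S A) {x : Ω} (hx : x ∈ S) (i : ℕ) :
    Wi hS h hx (i + 1) = br hS h hx (Wi hS h hx i) := rfl

theorem br_le (hS : IsPGroup p S) (h : UAb p S A) {x : Ω} (hx : x ∈ S) (K : Subgroup Ω) : br hS h hx K ≤ A := by
  intro y hy
  obtain ⟨a, ha, -, rfl⟩ := (mem_br hS h hx).1 hy
  exact h.comm_mem hS (h.le ha) hx

theorem Wi_le (hS : IsPGroup p S) (h : UAb p S A) {x : Ω} (hx : x ∈ S) (i : ℕ) : Wi hS h hx i ≤ A := by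
  rcases i with _ | i
  · exact le_rfl
  · exact br_le hS h hx _

theorem Wi_le_comm (hS : IsPGroup p S) (h : UAb p S A) {x : Ω} (hx : x ∈ S) (i : ℕ) : Wi hS h hx (i + 1) ≤ ⁅S, S⁆ := by
  rw [Wi_succ]
  intro y hy
  obtain ⟨a, ha, -, rfl⟩ := (mem_br hS h hx).1 hy
  exact Subgroup.commutator_mem_commutator (h.le ha) hx

theorem Wi_le_lcs (hS : IsPGroup p S) (h : UAb p S A) {x : Ω} (hx : x ∈ S) (i : ℕ) :
    Wi hS h hx i ≤ Subgroup.lowerCentralSeries S i := by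
  induction i with
  | zero => exact h.le
  | succ i ih =>
    rw [Wi_succ, Subgroup.lowerCentralSeries_succ]
    intro y hy
    obtain ⟨a, ha, haK, rfl⟩ := (mem_br hS h hx).1 hy
    exact Subgroup.commutator_mem_commutator (ih haK) hx

/-- `|[A,x]| ≤ |Z ∩ S'|^i |[A, x; i+1]|` -/
theorem card_Wi (hS : IsPGroup p S) (h : UAb p S A) {x : Ω} (hx : x ∈ S) (hxA : x ∉ A) (i : ℕ) :
    Nat.card ↥⁅S, S⁆ ≤ Nat.card ↥(Zs S ⊓ ⁅S, S⁆) ^ i * Nat.card (Wi hS h hx (i + 1)) := by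
  induction i with
  | zero =>
    rw [pow_zero, one_mul, Wi_succ, Wi_zero, br_eq hS h hx hxA]
  | succ i ih =>
    refine ih.trans ?_
    have h1 := card_br hS h hx hxA (Wi_le hS h hx (i + 1))
    haveI : Finite ↥(Zs S ⊓ ⁅S, S⁆) := finite_of_le (inf_le_left.trans cen_le)
    have h2 : Nat.card ↥(Zs S ⊓ Wi hS h hx (i + 1)) ≤ Nat.card ↥(Zs S ⊓ ⁅S, S⁆) :=
      card_le_of_le (inf_le_inf le_rfl (Wi_le_comm hS h hx i))
    rw [← h1, Wi_succ hS h hx (i + 1), pow_succ]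
    calc Nat.card ↥(Zs S ⊓ ⁅S, S⁆) ^ i * (Nat.card ↥(br hS h hx (Wi hS h hx (i + 1))) * Nat.card ↥(Zs S ⊓ Wi hS h hx (i + 1)))
        ≤ Nat.card ↥(Zs S ⊓ ⁅S, S⁆) ^ i * (Nat.card ↥(br hS h hx (Wi hS h hx (i + 1))) * Nat.card ↥(Zs S ⊓ ⁅S, S⁆)) :=
          Nat.mul_le_mul_left _ (Nat.mul_le_mul_left _ h2)
      _ = _ := by ring

theorem ZS_index (hS : IsPGroup p S) (h : UAb p S A) (hc : Nat.card ↥(Zs S ⊓ ⁅S, S⁆) = p) :
    (Zs S ⊔ ⁅S, S⁆).relIndex A = p := by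
  have hle : Zs S ⊔ ⁅S, S⁆ ≤ A := sup_le (h.Z_le hS) (h.comm_le hS)
  haveI : Finite A := finite_of_le h.le
  haveI : Finite ↥(Zs S ⊔ ⁅S, S⁆) := finite_of_le hle
  have h1 := card_rel hle
  have hn : Zs S ≤ Subgroup.normalizer ((⁅S, S⁆ : Subgroup Ω) : Set Ω) := by
    refine le_normalizer_of fun z hz c hc' => ?_
    rw [h.comm z (h.Z_le hS hz) c (h.comm_le hS hc'), mul_inv_cancel_right]
    exact hc'
  have h2 := card_sup_inf hn
  have h3 := h.card_comm hS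
  rw [hc, mul_comm (Nat.card (Zs S)), h3] at h2
  rw [← h2] at h1
  exact Nat.eq_of_mul_eq_mul_left Nat.card_pos (by rw [← h1])

end count

end Cfsg.Agent.H1.Ua
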