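import Mathlib
import Cfsg.Agent.H1_UaC
import Cfsg.Agent.H1_FusZ3

set_option autoImplicit false
set_option linter.all false

/-! Fusion over `p`-groups with a unique abelian subgroup of index `p`: extension of maps. -/

namespace Cfsg.Agent.H1.Ua

open Cfsg Cfsg.FusionSystem Cfsg.Agent.H27.Fus Cfsg.Agent.H27.Grp Cfsg.Agent.H1.FusA
open scoped commutatorElement

universe u
variable {Ω : Type u} [Group Ω] {S A B K L P Q R : Subgroup Ω} {p : ℕ} {F : FusionSystem S} {f g α β γ : Ω → Ω}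

section inv

variable [Fact p.Prime] [Finite S]

omit [Fact p.Prime] in
theorem im_self (hf : Map F P f) (hQP : Q ≤ P) (hm : ∀ x ∈ Q, f x ∈ Q) : im Q f = Q := by
  have h1 := hf.mono hQP
  haveI : Finite Q := finite_of_le h1.le
  refine eq_of_le_of_card_le ?_ ?_
  · intro y hy
    obtain ⟨x, hx, rfl⟩ := h1.mem_im.1 hy
    exact hm x hx
  · rw [h1.card_im]

theorem UAb.map_A (h : UAb p S A) (hα : Iso F S S α) {a : Ω} (ha : a ∈ A) : α a ∈ A := by
  have h1 := hα.map.mono h.le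
  have h2 : im A α = A := by
    apply h.uniq
    · exact h1.im_le
    · intro x hx y hy
      obtain ⟨x', hx', rfl⟩ := h1.mem_im.1 hx
      obtain ⟨y', hy', rfl⟩ := h1.mem_im.1 hy
      rw [← h1.mul hx' hy', ← h1.mul hy' hx', h.comm x' hx' y' hy']
    · have h3 := card_rel h1.im_le
      rw [h1.card_im, ← h.card] at h3
      haveI : Finite A := finite_of_le h.le
      exact Nat.eq_of_mul_eq_mul_left Nat.card_pos h3
  rw [← h2]
  exact h1.apply_mem_im ha

theorem UAb.map_A_iff (h : UAb p S A) (hα : Iso F S S α) {a : Ω} (haS : a ∈ S) : α a ∈ A ↔ a ∈ A := by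
  constructor
  · intro h1
    have := h.map_A hα.symm h1
    rwa [hα.finv_left haS] at this
  · exact h.map_A hα

omit [Fact p.Prime] [Finite S] in
theorem map_Zs (hα : Iso F S S α) {z : Ω} (hz : z ∈ Zs S) : α z ∈ Zs S := by
  rw [mem_Zs] at hz ⊢
  refine ⟨hα.maps z hz.1, fun s hs => ?_⟩
  obtain ⟨u, hu, rfl⟩ := hα.surj s hs
  rw [← hα.map.mul hu hz.1, ← hα.map.mul hz.1 hu, hz.2 u hu]

omit [Fact p.Prime] [Finite S] in
theorem map_comm_elt (hα : Iso F S S α) {a b : Ω} (ha : a ∈ S) (hb : b ∈ S) :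
    α (a * b * a⁻¹ * b⁻¹) = α a * α b * (α a)⁻¹ * (α b)⁻¹ := by
  rw [hα.map.mul (S.mul_mem (S.mul_mem ha hb) (S.inv_mem ha)) (S.inv_mem hb), hα.map.mul (S.mul_mem ha hb) (S.inv_mem ha),
    hα.map.mul ha hb, hα.map.inv ha, hα.map.inv hb]

omit [Fact p.Prime] [Finite S] in
theorem map_Z2s (hα : Iso F S S α) {z : Ω} (hz : z ∈ Z2s S) : α z ∈ Z2s S := by
  rw [mem_Z2s] at hz ⊢
  refine ⟨hα.maps z hz.1, fun s hs => ?_⟩
  obtain ⟨u, hu, rfl⟩ := hα.surj s hs
  rw [← map_comm_elt hα hz.1 hu]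
  exact map_Zs hα (hz.2 u hu)

theorem UAb.map_comm (hS : IsPGroup p S) (h : UAb p S A) (hα : Iso F S S α) {c : Ω} (hc : c ∈ ⁅S, S⁆) : α c ∈ ⁅S, S⁆ := by
  obtain ⟨x, hx, hxA⟩ := h.exists_out
  rw [br_eq hS h hx hxA, mem_br] at hc
  obtain ⟨a, ha, -, rfl⟩ := hc
  rw [map_comm_elt hα (h.le ha) hx]
  exact Subgroup.commutator_mem_commutator (hα.maps a (h.le ha)) (hα.maps x hx)

end inv

section ovr

variable [Fact p.Prime] [Finite S]

theorem ess_nab_moves (hS : IsPGroup p S) (hF : F.IsSaturated p) (h : UAb p S A) (hP : F.IsEssential p P) {x : Ω}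
    (hx : x ∈ P) (hxA : x ∉ A) :
    ∃ α ∈ F.autGroup P, ∃ u : P, (u : Ω) ∈ A ∧ (α u : Ω) ∉ A := by
  have hPS := hP.1.1
  have hrad := essential_radical hS hP
  have hlt := essential_lt hS hF hP
  have hAnP : ¬ A ≤ P := by
    intro hAP
    apply hlt.ne
    refine le_antisymm hPS fun s hs => ?_
    obtain ⟨n, a, ha, rfl⟩ := h.gen hS (hPS hx) hxA hs
    exact P.mul_mem (hAP ha) (P.zpow_mem hx n)
  by_contra hcon
  push Not at hcon
  have hinv : AutInv F P A := fun α hα y hy => hcon α hα y hy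
  apply hAnP
  refine le_of_radical2 hS hP.1 hrad h.le ?_ A hinv ?_
  · intro y hy
    exact (mem_nrm_of_forall h.le (hPS hy) fun a ha => h.nrm hS (hPS hy) ha).2
  · intro s hs hsN
    refine ⟨fun y hy hyA => ?_, fun y hy => ?_⟩
    · rw [h.comm s hs y hyA]; group
    · have h1 := h.comm_mem hS (S.inv_mem (hPS hy)) (h.le hs)
      have h2 : y⁻¹ * s * y⁻¹⁻¹ * s⁻¹ = y⁻¹ * (s * y * s⁻¹) := by group
      rwa [h2] at h1

theorem ess_ab_cardP (hS : IsPGroup p S) (h : UAb p S A) (hP : F.IsEssential p P) {x : Ω}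
    (hx : x ∈ P) (hxA : x ∉ A) (hab : ∀ a ∈ P, ∀ b ∈ P, a * b = b * a) : Nat.card P = Nat.card (Zs S) * p := by
  have h1 := h.card_inf hS hP.1.1 (fun hle => hxA (hle hx))
  rw [ess_ab_inf hS h hP hx hxA hab] at h1
  exact h1.symm

/-- a subgroup generated over `B` by an element outside -/
theorem sup_eq_of_card {H K : Subgroup Ω} [Finite K] (hK : IsPGroup p K) (hHK : H ≤ K) {c : Ω} (hc : c ∈ K) (hcH : c ∉ H)
    (hcard : Nat.card K ≤ Nat.card H * p) : H ⊔ Subgroup.zpowers c = K := by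
  have hle : H ⊔ Subgroup.zpowers c ≤ K := sup_le hHK (Subgroup.zpowers_le.2 hc)
  haveI : Finite ↥(H ⊔ Subgroup.zpowers c) := finite_of_le hle
  apply eq_of_le_of_card_le hle
  refine hcard.trans (card_pow_ge (hK.to_le hle) le_sup_left ?_)
  intro he
  apply hcH
  rw [he]
  exact Subgroup.mem_sup_right (Subgroup.mem_zpowers c)

theorem mem_sup_cen {H : Subgroup Ω} {c y : Ω} (hcomm : ∀ z ∈ H, z * c = c * z) (hy : y ∈ H ⊔ Subgroup.zpowers c) :
    ∃ z ∈ H, ∃ n : ℤ, y = z * c ^ n := by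
  have hn : H ≤ Subgroup.normalizer (Subgroup.zpowers c : Set Ω) := by
    refine le_normalizer_of fun z hz w hw => ?_
    obtain ⟨n, rfl⟩ := hw
    have : Commute z (c ^ n) := Commute.zpow_right (hcomm z hz) n
    show z * c ^ n * z⁻¹ ∈ _
    rw [this.eq, mul_inv_cancel_right]
    exact ⟨n, rfl⟩
  obtain ⟨a, ha, b, ⟨n, rfl⟩, rfl⟩ := mem_sup_nrm hn hy
  exact ⟨a, ha, n, rfl⟩

/-- translates of `N_S(P)`, `P` essential abelian, lie in no essential subgroup -/
theorem ess_no_over (hS : IsPGroup p S) (hF : F.IsSaturated p) (h : UAb p S A) (hP : F.IsEssential p P) {x : Ω}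
    (hx : x ∈ P) (hxA : x ∉ A) (hab : ∀ a ∈ P, ∀ b ∈ P, a * b = b * a) (hβ : Iso F S S β) (hR : F.IsEssential p R)
    (hle : im (normalizerIn S P) β ≤ R) : False := by
  have hPS := hP.1.1
  have hRS := hR.1.1
  have hp := (Fact.out : p.Prime)
  have hPA : P ≠ A := fun e => hxA (e ▸ hx)
  have hmN := hβ.map.mono (nrm_le : normalizerIn S P ≤ S)
  have hmP := hβ.map.mono hPS
  have hPN : P ≤ normalizerIn S P := le_nrm hPS
  have hP'R : im P β ≤ R := by
    intro y hy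
    obtain ⟨u, hu, rfl⟩ := hmP.mem_im.1 hy
    exact hle (hmN.apply_mem_im (hPN hu))
  set y := β x with hy
  have hyP' : y ∈ im P β := hmP.apply_mem_im hx
  have hyA : y ∉ A := fun h1 => hxA ((h.map_A_iff hβ (hPS hx)).1 h1)
  have hyR : y ∈ R := hP'R hyP'
  have hRA : R ≠ A := fun e => hyA (e ▸ hyR)
  obtain ⟨hZ2A, hZ2c⟩ := ess_Z2 hS hF h hP hPA
  haveI : Finite R := finite_of_le hRS
  haveI : Finite (Zs S) := finite_of_le cen_le
  haveI : Finite (Z2s S) := finite_of_le Z2_le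
  haveI : Finite (normalizerIn S R) := fin_nrm
  have hcP := ess_ab_cardP hS h hP hx hxA hab
  have hcN := ess_idx hS hF h hP hPA
  have hcN' : Nat.card ↥(im (normalizerIn S P) β) = Nat.card (Zs S) * p * p := by
    rw [hmN.card_im, hcN, hcP]
  have hcle := card_le_of_le hle
  have hcR := h.card_inf hS hRS (fun hl => hyA (hl hyR))
  have hZpos : 0 < Nat.card (Zs S) := Nat.card_pos
  by_cases hRab : ∀ a ∈ R, ∀ b ∈ R, a * b = b * a
  · rw [ess_ab_inf hS h hR hyR hyA hRab] at hcR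
    rw [hcN', ← hcR] at hcle
    have h1 : Nat.card (Zs S) * p ≤ Nat.card (Zs S) := Nat.le_of_mul_le_mul_right hcle hp.pos
    have h2 : Nat.card (Zs S) * 1 < Nat.card (Zs S) * p := Nat.mul_lt_mul_of_pos_left hp.one_lt hZpos
    rw [mul_one] at h2
    omega
  obtain ⟨-, hAR, -⟩ := ess_nab hS hF h hR hyR hyA hRab
  rw [hAR] at hcR
  obtain ⟨α, hα, u, huA, hu⟩ := ess_nab_moves hS hF h hR hyR hyA
  have hi := (mem_autGroup_iff hRS).1 hα
  set b : Ω := (α u : Ω) with hb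
  have hbR : b ∈ R := (α u).2
  -- an element of `N_A(R)` outside `R`
  obtain ⟨a, haA, haN, haR⟩ : ∃ a ∈ A, a ∈ normalizerIn S R ∧ a ∉ R := by
    by_contra hcon
    push Not at hcon
    have h1 : A ⊓ normalizerIn S R ≤ A ⊓ R := fun a ha => ⟨ha.1, hcon a ha.1 ha.2⟩
    have h2 := h.card_inf hS (B := normalizerIn S R) nrm_le (fun hl => hyA (hl (le_nrm hRS hyR)))
    have h3 := nrm_gt hS hF hR
    haveI : Finite ↥(A ⊓ R) := finite_of_le (inf_le_right.trans hRS)
    have h4 := card_le_of_le h1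
    rw [hAR] at h4
    rw [← h2, ← hcR] at h3
    have h5 : Nat.card (Z2s S) * p ≤ Nat.card ↥(A ⊓ normalizerIn S R) := Nat.le_of_mul_le_mul_right h3 hp.pos
    have h6 : 0 < Nat.card (Z2s S) := Nat.card_pos
    have h7 : Nat.card (Z2s S) * 1 < Nat.card (Z2s S) * p := Nat.mul_lt_mul_of_pos_left hp.one_lt h6
    rw [mul_one] at h7
    omega
  set c := a * b * a⁻¹ * b⁻¹ with hc
  have hcA : c ∈ A := h.comm_mem hS (h.le haA) (hRS hbR)
  have hcRR : c ∈ R := R.mul_mem (nrm_conj_mem haN hbR) (R.inv_mem hbR)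
  have hcZ2 : c ∈ Z2s S := by rw [← hAR]; exact ⟨hcA, hcRR⟩
  have hcZ : c ∉ Zs S := by
    intro h1
    apply haR
    have h2 : a ∈ A ⊓ R := by rw [hAR]; exact (h.mem_Z2 hS (hRS hbR) hu haA).2 h1
    exact h2.2
  have hZ2e : Zs S ⊔ Subgroup.zpowers c = Z2s S :=
    sup_eq_of_card (p := p) (hS.to_le Z2_le) Z_le_Z2 hcZ2 hcZ hZ2c.le
  -- write `b` in terms of `y`
  obtain ⟨n, a1, ha1, hbe⟩ := h.gen hS (hRS hyR) hyA (hRS hbR)
  have ha1R : a1 ∈ R := by
    have := R.mul_mem hbR (R.inv_mem (R.zpow_mem hyR n))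
    rwa [hbe, mul_inv_cancel_right] at this
  have ha1Z2 : a1 ∈ Z2s S := by rw [← hAR]; exact ⟨ha1, ha1R⟩
  rw [← hZ2e] at ha1Z2
  obtain ⟨z, hz, i, hze⟩ := mem_sup_cen (fun w hw => h.comm w (h.Z_le hS hw) c hcA) ha1Z2
  -- `a ^ (-i)` conjugates `b` into `P'`
  have hconj : ∀ j : ℤ, a ^ j * b * (a ^ j)⁻¹ = c ^ j * b := by
    intro j
    have h1 := (dl hS h (hRS hbR)).map_zpow (⟨a, haA⟩ : A) j
    have h2 : a ^ j * b * (a ^ j)⁻¹ * b⁻¹ = c ^ j := by
      have h3 : dl hS h (hRS hbR) ((⟨a, haA⟩ : A) ^ j) = a ^ j * b * (a ^ j)⁻¹ * b⁻¹ := rfl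
      rw [← h3, h1]; rfl
    rw [← h2, inv_mul_cancel_right]
  have hZP' : Zs S ≤ im P β := by
    intro w hw
    obtain ⟨v, hv, rfl⟩ := hβ.surj w (mem_Zs.1 hw).1
    have hvZ : v ∈ Zs S := by
      have := map_Zs hβ.symm hw
      rwa [hβ.finv_left hv] at this
    exact hmP.apply_mem_im (Z_le_ess hP hvZ)
  have hmem : a ^ (-i) * b * (a ^ (-i))⁻¹ ∈ im P β := by
    rw [hconj, hbe, hze]
    have h1 : c ^ (-i) * (z * c ^ i * y ^ n) = z * y ^ n := by
      have h2 : Commute z (c ^ (-i)) := Commute.zpow_right (h.comm z (h.Z_le hS hz) c hcA) _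
      calc c ^ (-i) * (z * c ^ i * y ^ n) = (c ^ (-i) * z) * (c ^ i * y ^ n) := by group
        _ = (z * c ^ (-i)) * (c ^ i * y ^ n) := by rw [h2.eq]
        _ = _ := by group
    rw [h1]
    exact (im P β).mul_mem (hZP' hz) ((im P β).zpow_mem hyP' n)
  -- the map `Z₂ → P'`
  have hZ2R : Z2s S ≤ R := by rw [← hAR]; exact inf_le_right
  have haiS : a ^ (-i) ∈ S := S.zpow_mem (h.le haA) _
  have hmap : Map F (Z2s S) ((fun w => a ^ (-i) * w * (a ^ (-i))⁻¹) ∘ totA α) :=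
    (map_conj F (P := R) hRS haiS).comp (hi.map.mono hZ2R) (fun w hw => hi.maps w (hZ2R hw))
  haveI : Finite ↥(im P β) := finite_of_le hmP.im_le
  have hiso : Iso F (Z2s S) (im P β) ((fun w => a ^ (-i) * w * (a ^ (-i))⁻¹) ∘ totA α) := by
    refine iso_of_card_le hmap ?_ ?_
    · intro w hw
      show a ^ (-i) * totA α w * (a ^ (-i))⁻¹ ∈ im P β
      have hwR : totA α w ∈ R := hi.maps w (hZ2R hw)
      obtain ⟨m, a0, ha0, hwe⟩ := h.mem_P hS hRS hbR hu hwR
      have hcw : totA α w * b = b * totA α w := by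
        have h1 : w * (u : Ω) = u * w := h.comm w (hZ2A hw) u huA
        have h2 : totA α u = b := totA_apply α u
        rw [← h2, ← hi.map.mul (hZ2R hw) u.2, ← hi.map.mul u.2 (hZ2R hw), h1]
      have ha0Z : a0 ∈ Zs S := by
        rw [h.mem_Z hS (hRS hbR) hu]
        refine ⟨ha0.1, ?_⟩
        have h1 : a0 = totA α w * b ^ (-m) := by rw [hwe]; group
        have h2 : Commute (totA α w) b := hcw
        have h3 : Commute (b ^ (-m)) b := Commute.zpow_self b _
        rw [h1]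
        exact (Commute.mul_left h2 h3).eq
      have h4 : a ^ (-i) * totA α w * (a ^ (-i))⁻¹ = a0 * (a ^ (-i) * b * (a ^ (-i))⁻¹) ^ m := by
        rw [conj_zpow, hwe]
        have h5 := (mem_Zs.1 ha0Z).2 (a ^ (-i)) haiS
        calc a ^ (-i) * (a0 * b ^ m) * (a ^ (-i))⁻¹ = (a ^ (-i) * a0) * b ^ m * (a ^ (-i))⁻¹ := by group
          _ = (a0 * a ^ (-i)) * b ^ m * (a ^ (-i))⁻¹ := by rw [h5]
          _ = _ := by group
      rw [h4]
      exact (im P β).mul_mem (hZP' ha0Z) ((im P β).zpow_mem hmem m)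
    · rw [hmP.card_im, hcP, hZ2c]
  -- contradiction
  have hconjP : F.IsConj P (Z2s S) :=
    isConj_trans (Iso.isConj hmP.iso) (isConj_symm hiso.isConj)
  have h1 := hP.2.1.2 _ hconjP
  have h2 : normalizerIn S (Z2s S) = S := by
    apply le_antisymm nrm_le
    intro s hs
    refine mem_nrm_of_forall Z2_le hs fun w hw => ?_
    have h3 := (mem_Z2s.1 hw).2 s hs
    have h4 := (Zs S).inv_mem h3
    have h5 : s * w * s⁻¹ = (w * s * w⁻¹ * s⁻¹)⁻¹ * w := by group
    rw [h5]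
    exact (Z2s S).mul_mem (Z_le_Z2 h4) hw
  rw [h2, hcN, hcP] at h1
  have h3 := h.card
  have h4 := h.big hS
  rw [← h3] at h1
  have h5 := Nat.le_of_mul_le_mul_right h1 hp.pos
  omega

/-- `T` is an `Aut_F(S)`-translate of `Y` -/
def Tr (F : FusionSystem S) (Y T : Subgroup Ω) : Prop := ∃ β, Iso F S S β ∧ im Y β = T

theorem im_im (hf : Map F P f) (hg : Map F (im P f) g) : im (im P f) g = im P (g ∘ f) := by
  have h1 : Map F P (g ∘ f) := hg.comp hf fun x hx => hf.apply_mem_im hx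
  ext y
  rw [hg.mem_im, h1.mem_im]
  constructor
  · rintro ⟨x, hx, rfl⟩
    obtain ⟨u, hu, rfl⟩ := hf.mem_im.1 hx
    exact ⟨u, hu, rfl⟩
  · rintro ⟨u, hu, rfl⟩
    exact ⟨f u, hf.apply_mem_im hu, rfl⟩

theorem Tr.im {Y T : Subgroup Ω} (hY : Y ≤ S) (h : Tr F Y T) (hγ : Iso F S S γ) : Tr F Y (im T γ) := by
  obtain ⟨β, hβ, rfl⟩ := h
  refine ⟨γ ∘ β, hβ.trans hγ, ?_⟩
  exact (im_im (hβ.map.mono hY) (hγ.map.mono (hβ.map.mono hY).im_le)).symm

theorem Tr.le {Y T : Subgroup Ω} (hY : Y ≤ S) (h : Tr F Y T) : T ≤ S := by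
  obtain ⟨β, hβ, rfl⟩ := h
  exact (hβ.map.mono hY).im_le

/-- every map on `Y` is the restriction of an element of `Aut_F(S)` if no translate of `Y` lies in an essential subgroup -/
theorem ext_top (hS : IsPGroup p S) (hF : F.IsSaturated p) {Y : Subgroup Ω} (hY : Y ≤ S)
    (hno : ∀ R, F.IsEssential p R → ∀ β, Iso F S S β → ¬ im Y β ≤ R) (hf : Map F Y f) :
    ∃ γ, Iso F S S γ ∧ ∀ y ∈ Y, f y = γ y := by
  have key : ∀ P f, Map F P f → ∀ T, T ≤ P → (Tr F Y T ∨ Tr F Y (im T f)) → ∃ γ, Iso F S S γ ∧ ∀ y ∈ T, f y = γ y := by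
    refine alperin hS hF (C := fun P f => ∀ T, T ≤ P → (Tr F Y T ∨ Tr F Y (im T f)) →
      ∃ γ, Iso F S S γ ∧ ∀ y ∈ T, f y = γ y) ?_ ?_ ?_
    · refine ⟨?_, ?_, ?_, ?_⟩
      · intro P f g h1 hfg T hT h2
        have h3 : im T f = im T g := im_congr fun x hx => hfg x (hT hx)
        rw [← h3] at h2
        obtain ⟨γ, hγ, h4⟩ := h1 T hT h2
        exact ⟨γ, hγ, fun y hy => by rw [← hfg y (hT hy)]; exact h4 y hy⟩
      · intro P Q f h1 hQ T hT h2
        exact h1 T (hT.trans hQ) h2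
      · intro P Q f g hf hg h1 h2 hm T hT h3
        have hfT := hf.mono hT
        have hle : im T f ≤ Q := by
          intro y hy
          obtain ⟨x, hx, rfl⟩ := hfT.mem_im.1 hy
          exact hm x (hT hx)
        have hgT := hg.mono hle
        rcases h3 with h3 | h3
        · obtain ⟨γ, hγ, h4⟩ := h1 T hT (Or.inl h3)
          have h5 : im T f = im T γ := im_congr h4
          obtain ⟨δ, hδ, h6⟩ := h2 (im T f) hle (Or.inl (h5 ▸ Tr.im hY h3 hγ))
          refine ⟨δ ∘ γ, hγ.trans hδ, fun y hy => ?_⟩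
          show g (f y) = δ (γ y)
          rw [h6 _ (hfT.apply_mem_im hy), h4 y hy]
        · rw [← im_im hfT hgT] at h3
          obtain ⟨δ, hδ, h6⟩ := h2 (im T f) hle (Or.inr h3)
          have h7 : im (im T f) g = im (im T f) δ := im_congr h6
          have h8 : Tr F Y (im T f) := by
            rw [h7] at h3
            have h9 := Tr.im hY h3 hδ.symm
            have hTS := hfT.im_le
            rw [im_im (hδ.map.mono hTS) ((hδ.symm).map.mono (hδ.map.mono hTS).im_le)] at h9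
            have h10 : im (im T f) (finv S δ ∘ δ) = im T f := by
              have h11 : im (im T f) (finv S δ ∘ δ) = im (im T f) id :=
                im_congr fun x hx => hδ.finv_left (hTS hx)
              rw [h11]
              exact (iso_refl F hTS).im_eq
            rwa [h10] at h9
          obtain ⟨γ, hγ, h4⟩ := h1 T hT (Or.inr h8)
          refine ⟨δ ∘ γ, hγ.trans hδ, fun y hy => ?_⟩
          show g (f y) = δ (γ y)
          rw [h6 _ (hfT.apply_mem_im hy), h4 y hy]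
      · intro P Q f hi h1 T hT h2
        have hi' := hi.symm
        have hfi := hi'.map.mono hT
        set T' := im T (finv P f) with hT'
        have hT'P : T' ≤ P := by
          intro y hy
          obtain ⟨x, hx, rfl⟩ := hfi.mem_im.1 hy
          exact hi.finv_mem (hT hx)
        have hback : im T' f = T := by
          rw [hT', im_im hfi (hi.map.mono hT'P)]
          have h11 : im T (f ∘ finv P f) = im T id := im_congr fun x hx => hi.finv_right (hT hx)
          rw [h11]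
          exact (iso_refl F hfi.le).im_eq
        obtain ⟨γ, hγ, h4⟩ := h1 T' hT'P (by rw [hback]; exact h2.symm)
        refine ⟨finv S γ, hγ.symm, fun y hy => ?_⟩
        have h5 : finv P f y ∈ T' := hfi.apply_mem_im hy
        have h6 := h4 _ h5
        rw [hi.finv_right (hT hy)] at h6
        have h7 : γ (finv P f y) = y := h6.symm
        have h8 : finv P f y ∈ S := (hT'P.trans hi.le) h5
        rw [← hγ.finv_left h8, h7]
    · intro f hf T hT h2
      exact ⟨f, hf, fun y _ => rfl⟩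
    · intro R hR f hf T hT h2
      exfalso
      rcases h2 with ⟨β, hβ, rfl⟩ | ⟨β, hβ, h3⟩
      · exact hno R hR β hβ hT
      · refine hno R hR β hβ ?_
        rw [h3]
        intro y hy
        obtain ⟨x, hx, rfl⟩ := (hf.map.mono hT).mem_im.1 hy
        exact hf.maps x (hT hx)
  exact key Y f hf Y le_rfl (Or.inl ⟨id, iso_refl F le_rfl, (iso_refl F hY).im_eq⟩)

end ovr

end Cfsg.Agent.H1.Ua
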