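import Mathlib
import Cfsg.Agent.H1_UaD

set_option autoImplicit false
set_option linter.all false

/-! Construction of the involutory automorphism. -/

namespace Cfsg.Agent.H1.Ua

open Cfsg Cfsg.FusionSystem Cfsg.Agent.H27.Fus Cfsg.Agent.H27.Grp Cfsg.Agent.H1.FusA
open scoped commutatorElement

universe u
variable {Ω : Type u} [Group Ω] {S A B K L P Q R : Subgroup Ω} {p : ℕ} {F : FusionSystem S} {f g α β γ : Ω → Ω}

/-- `Z ∩ S'` -/
abbrev Z0s (S : Subgroup Ω) : Subgroup Ω := Zs S ⊓ ⁅S, S⁆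

structure Good (F : FusionSystem S) (A : Subgroup Ω) (α : Ω → Ω) : Prop where
  iso : Iso F S S α
  neg : ∀ s ∈ S, α s * s ∈ A
  inv : ∀ z ∈ Z0s S, α z = z⁻¹
  tri : ∀ z ∈ Zs S, z⁻¹ * α z ∈ Z0s S

section good

variable [Fact p.Prime] [Finite S]

theorem ess_ab_D (hS : IsPGroup p S) (h : UAb p S A) (hP : F.IsEssential p P) {x : Ω}
    (hx : x ∈ P) (hxA : x ∉ A) (hab : ∀ a ∈ P, ∀ b ∈ P, a * b = b * a) {φ : MulAut P} (hφ : φ ∈ F.autGroup P) :
    Nat.card (Zs S) ≤ Nat.card ↥(Zs S ⊓ im (Zs S) (totA φ)) * p := by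
  have hPS := hP.1.1
  have hZP := Z_le_ess hP
  haveI : Finite P := finite_of_le hPS
  haveI : Finite (Zs S) := finite_of_le cen_le
  have hφi := (mem_autGroup_iff hPS).1 hφ
  have h2 : (Zs S ⊓ im (Zs S) (totA φ)).relIndex (Zs S) ≤ p := by
    rw [Subgroup.inf_relIndex_left]
    have hmZ := hφi.map.mono hZP
    have e1 : im (Zs S) (totA φ) ≤ P := by
      intro y hy
      obtain ⟨z, hz, rfl⟩ := hmZ.mem_im.1 hy
      exact hφi.maps z (hZP hz)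
    have e2 := card_rel e1
    rw [hmZ.card_im] at e2
    have e3 := h.card_inf hS hPS (ess_not_le h hP (fun hPA => hxA (hPA ▸ hx)))
    rw [ess_ab_inf hS h hP hx hxA hab] at e3
    rw [← e3] at e2
    have e4 := Nat.eq_of_mul_eq_mul_left Nat.card_pos e2
    calc (im (Zs S) (totA φ)).relIndex (Zs S) ≤ (im (Zs S) (totA φ)).relIndex P :=
          Subgroup.relIndex_le_of_le_right hZP rel_ne
      _ = p := e4
  have h1 := card_rel (S := Zs S) (B := Zs S ⊓ im (Zs S) (totA φ)) inf_le_left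
  rw [← h1]
  exact Nat.mul_le_mul_left _ h2

theorem zpow_eq_one_of_dvd {z : Ω} (hz : z ^ p = 1) {n : ℤ} (hn : (p : ℤ) ∣ n) : z ^ n = 1 := by
  obtain ⟨k, rfl⟩ := hn
  rw [zpow_mul, zpow_natCast, hz, one_zpow]

theorem zpow_one_iff {z : Ω} (hz : z ^ p = 1) (hz1 : z ≠ 1) {n : ℤ} : z ^ n = 1 ↔ (p : ℤ) ∣ n := by
  have ho : orderOf z = p := orderOf_eq_prime hz hz1
  rw [← ho]
  exact (orderOf_dvd_iff_zpow_eq_one).symm

theorem exists_good (hS : IsPGroup p S) (hF : F.IsSaturated p) (hp2 : p ≠ 2) (h : UAb p S A)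
    (hP : F.IsEssential p P) {x : Ω}
    (hx : x ∈ P) (hxA : x ∉ A) (hab : ∀ a ∈ P, ∀ b ∈ P, a * b = b * a) {φ : MulAut P} (hφ : φ ∈ F.autGroup P)
    (hφH : φ ∉ Hext F P) :
    ∃ α, Good F A α ∧ (∀ z ∈ Zs S, α z = z ↔ z ∈ Zs S ⊓ im (Zs S) (totA φ)) ∧
      (∀ z ∈ Zs S, ∃ d ∈ Zs S ⊓ im (Zs S) (totA φ), ∃ w ∈ Z0s S, z = d * w) := by
  have hPS := hP.1.1
  have hp := (Fact.out : p.Prime)
  have hPA : P ≠ A := fun e => hxA (e ▸ hx)
  have hZP := Z_le_ess hP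
  haveI : Finite P := finite_of_le hPS
  haveI : Finite (Zs S) := finite_of_le cen_le
  haveI : Finite (Z2s S) := finite_of_le Z2_le
  haveI : Finite ↥(Z0s S) := finite_of_le (inf_le_left.trans cen_le)
  obtain ⟨hZ2A, hZ2c⟩ := ess_Z2 hS hF h hP hPA
  have hZ0c := ess_card_comm hS hF h hP hPA
  have hinf := ess_ab_inf hS h hP hx hxA hab
  set D := Zs S ⊓ im (Zs S) (totA φ) with hD
  have hφi := (mem_autGroup_iff hPS).1 hφ
  -- `a`
  obtain ⟨a, haZ2, haZ⟩ : ∃ a ∈ Z2s S, a ∉ Zs S := by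
    by_contra hcon
    push Not at hcon
    have h1 := card_le_of_le (show Z2s S ≤ Zs S from hcon)
    rw [hZ2c] at h1
    have h2 : Nat.card (Zs S) * 1 < Nat.card (Zs S) * p := Nat.mul_lt_mul_of_pos_left hp.one_lt Nat.card_pos
    rw [mul_one] at h2
    omega
  have haA : a ∈ A := hZ2A haZ2
  have haN : a ∈ normalizerIn S P := by
    have h1 : a ∈ A ⊓ Z2s S := ⟨haA, haZ2⟩
    rw [← ess_ab_nrm hS h hP hx hxA hab] at h1
    exact h1.2
  -- commutators with `a`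
  have hkey : ∀ v ∈ P, v ∉ A → ∀ {ψ : MulAut P}, ψ ∈ F.autGroup P → ψ ∉ Hext F P →
      a * v * a⁻¹ * v⁻¹ ∉ Zs S ⊓ im (Zs S) (totA ψ) := by
    intro v hv hvA ψ hψ hψH h1
    exact haZ (ess_ab_key hS hF h hP hv hvA hab hψ hψH haA haN h1)
  have hcZ0 : ∀ v ∈ P, a * v * a⁻¹ * v⁻¹ ∈ Z0s S := by
    intro v hv
    refine ⟨?_, Subgroup.commutator_mem_commutator (h.le haA) (hPS hv)⟩
    rw [← hinf]
    exact ⟨h.comm_mem hS (h.le haA) (hPS hv), P.mul_mem (nrm_conj_mem haN hv) (P.inv_mem hv)⟩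
  have hpow : ∀ w ∈ Z0s S, w ^ p = 1 := by
    intro w hw
    have := pow_card_eq_one' (x := (⟨w, hw⟩ : Z0s S))
    rw [hZ0c] at this
    exact congrArg Subtype.val this
  have hgen : ∀ w ∈ Z0s S, w ≠ 1 → ∀ w' ∈ Z0s S, ∃ n : ℤ, w' = w ^ n := by
    intro w hw hw1 w' hw'
    have h1 : Subgroup.zpowers (⟨w, hw⟩ : Z0s S) = ⊤ := zpowers_eq_top_of_prime_card hZ0c
      (fun e => hw1 (congrArg Subtype.val e))
    have h2 : (⟨w', hw'⟩ : Z0s S) ∈ Subgroup.zpowers (⟨w, hw⟩ : Z0s S) := by rw [h1]; trivial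
    obtain ⟨n, hn⟩ := h2
    exact ⟨n, (congrArg Subtype.val hn).symm⟩
  set z1 := a * x * a⁻¹ * x⁻¹ with hz1
  have hz1Z0 : z1 ∈ Z0s S := hcZ0 x hx
  have hz1Z : z1 ∈ Zs S := hz1Z0.1
  have hz1P : z1 ∈ P := hZP hz1Z
  -- `x₀ = φ z₁`
  set x0 : Ω := totA φ z1 with hx0
  have hx0P : x0 ∈ P := hφi.maps _ hz1P
  have hφinv : φ⁻¹ ∈ F.autGroup P := Subgroup.inv_mem _ hφ
  have hφinvH : φ⁻¹ ∉ Hext F P := fun h1 => hφH (by simpa using Subgroup.inv_mem _ h1)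
  have hφx0 : totA φ⁻¹ x0 = z1 := by
    have h1 : totA φ z1 = φ ⟨z1, hz1P⟩ := totA_of_mem _ hz1P
    rw [hx0, h1, totA_apply, MulAut.inv_apply_self]
  have hx0Z : x0 ∉ Zs S := by
    intro h1
    refine hkey x hx hxA hφinv hφinvH ⟨hz1Z, ?_⟩
    have h2 := ((mem_autGroup_iff hPS).1 hφinv).map.mono hZP
    exact h2.mem_im.2 ⟨x0, h1, hφx0⟩
  have hx0A : x0 ∉ A := fun h1 => hx0Z (by rw [← hinf]; exact ⟨h1, hx0P⟩)
  have hx0p : x0 ^ p = 1 := by
    rw [hx0, ← hφi.map.pow hz1P, hpow z1 hz1Z0, hφi.map.one]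
  set z0 := a * x0 * a⁻¹ * x0⁻¹ with hz0
  have hz0Z0 : z0 ∈ Z0s S := hcZ0 x0 hx0P
  have hz0Z : z0 ∈ Zs S := hz0Z0.1
  have hz0P : z0 ∈ P := hZP hz0Z
  have hz0D : z0 ∉ D := hkey x0 hx0P hx0A hφ hφH
  have hz0ne : z0 ≠ 1 := fun h1 => hz0D (h1 ▸ D.one_mem)
  have hz0p : z0 ^ p = 1 := hpow z0 hz0Z0
  -- elements
  let X : P := ⟨x0, hx0P⟩
  let Z : P := ⟨z0, hz0P⟩
  have hcomm : ∀ u v : P, u * v = v * u := fun u v => Subtype.ext (hab u u.2 v v.2)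
  -- `t`
  set t : MulAut P := cjA P a haN.2 with ht
  have htF : t ∈ F.autGroup P := autInducedBy_le_autGroup F hPS (cjA_mem haN.2 haN.1)
  have htZ : ∀ z : P, (z : Ω) ∈ Zs S → t z = z := by
    intro z hz
    apply Subtype.ext
    rw [ht, cjA_apply, cen_comm hz haN.1]; group
  have htX : t X = Z * X := by
    apply Subtype.ext
    rw [ht, cjA_apply]
    show a * x0 * a⁻¹ = z0 * x0
    rw [hz0]; group
  -- `t'`
  set t' : MulAut P := φ * t * φ⁻¹ with ht'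
  have ht'F : t' ∈ F.autGroup P := Subgroup.mul_mem _ (Subgroup.mul_mem _ hφ htF) hφinv
  have ht'φ : ∀ v : P, (v : Ω) ∈ Zs S → t' (φ v) = φ v := by
    intro v hv
    show φ (t (φ⁻¹ (φ v))) = φ v
    rw [MulAut.inv_apply_self, htZ v hv]
  have hXφ : φ ⟨z1, hz1P⟩ = X := Subtype.ext (totA_of_mem _ hz1P).symm
  have ht'X : t' X = X := by rw [← hXφ]; exact ht'φ _ hz1Z
  have hxp : X ^ p = 1 := Subtype.ext hx0p
  have hzp : Z ^ p = 1 := Subtype.ext hz0p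
  have hDfix : ∀ d : P, (d : Ω) ∈ D → t' d = d := by
    intro d hd
    obtain ⟨v, hv, hvd⟩ := (hφi.map.mono hZP).mem_im.1 hd.2
    rw [totA_of_mem _ (hZP hv)] at hvd
    have h1 : φ ⟨v, hZP hv⟩ = d := Subtype.ext hvd
    rw [← h1]; exact ht'φ _ hv
  have hz1ne : z1 ≠ 1 := by
    intro h1
    apply hx0Z
    rw [hx0, h1, hφi.map.one]; exact (Zs S).one_mem
  obtain ⟨c, hc⟩ : ∃ c : ℤ, t' Z = X ^ c * Z := by
    -- `t v = z₁^k v`
    set v : P := φ⁻¹ Z with hv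
    obtain ⟨k, hk⟩ := hgen z1 hz1Z0 hz1ne _ (hcZ0 v v.2)
    refine ⟨k, ?_⟩
    have h1 : t v = (⟨z1, hz1P⟩ : P) ^ k * v := by
      apply Subtype.ext
      rw [ht, cjA_apply]
      show a * (v : Ω) * a⁻¹ = z1 ^ k * v
      rw [← hk]; group
    show φ (t (φ⁻¹ Z)) = _
    rw [← hv, h1, map_mul, map_zpow, hXφ, hv, MulAut.apply_inv_self]
  have hpc : ¬ (p : ℤ) ∣ c := by
    intro hdv
    have h1 : X ^ c = 1 := by
      obtain ⟨k, rfl⟩ := hdv
      rw [zpow_mul, zpow_natCast, hxp, one_zpow]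
    rw [h1, one_mul] at hc
    set v : P := φ⁻¹ Z with hv
    have h2 : t v = v := by
      have h3 : φ (t v) = Z := hc
      have h4 : t v = φ⁻¹ (φ (t v)) := (MulAut.inv_apply_self _ _ _).symm
      rw [h4, h3]
    have h3 : a * (v : Ω) * a⁻¹ = v := by
      have := congrArg Subtype.val h2
      rwa [ht, cjA_apply] at this
    by_cases hvA : (v : Ω) ∈ A
    · have hvZ : (v : Ω) ∈ Zs S := by rw [← hinf]; exact ⟨hvA, v.2⟩
      apply hz0D
      refine ⟨hz0Z, ?_⟩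
      refine (hφi.map.mono hZP).mem_im.2 ⟨v, hvZ, ?_⟩
      rw [totA_apply, hv, MulAut.apply_inv_self]
    · apply haZ
      rw [h.mem_Z hS (hPS v.2) hvA]
      refine ⟨haA, ?_⟩
      have := congrArg (fun w => w * a) h3
      simpa using this
  -- `j` with `c j ≡ -1`
  obtain ⟨j, hj⟩ : ∃ j : ℤ, (p : ℤ) ∣ c * j + 1 := by
    have hco : IsCoprime c (p : ℤ) := by
      have := (Nat.prime_iff_prime_int.1 hp).coprime_iff_not_dvd.2 hpc
      exact this.symm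
    obtain ⟨u, v, huv⟩ := hco
    refine ⟨-u, v, ?_⟩
    linarith
  have ht'j : ∀ n : ℤ, (t' ^ n) X = X ∧ (t' ^ n) Z = X ^ (c * n) * Z := by
    have hnat : ∀ n : ℕ, (t' ^ n) X = X ∧ (t' ^ n) Z = X ^ (c * n) * Z := by
      intro n
      induction n with
      | zero => simp
      | succ n ih =>
        constructor
        · rw [pow_succ', MulAut.mul_apply, ih.1, ht'X]
        · rw [pow_succ', MulAut.mul_apply, ih.2, map_mul, map_zpow, ht'X, hc, ← mul_assoc, ← zpow_add]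
          congr 2
          push_cast
          ring
    intro n
    obtain ⟨n, rfl | rfl⟩ := n.eq_nat_or_neg
    · have := hnat n
      exact_mod_cast this
    · obtain ⟨h1, h2⟩ := hnat n
      have h3 : (t' ^ (-(n : ℤ))) X = X := by
        have : (t' ^ (-(n : ℤ))) ((t' ^ n) X) = X := by
          rw [← MulAut.mul_apply, ← zpow_natCast, ← zpow_add, neg_add_cancel, zpow_zero]; rfl
        rwa [h1] at this
      refine ⟨h3, ?_⟩
      have h4 : (t' ^ (-(n : ℤ))) ((t' ^ n) Z) = Z := by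
        rw [← MulAut.mul_apply, ← zpow_natCast, ← zpow_add, neg_add_cancel, zpow_zero]; rfl
      rw [h2, map_mul, map_zpow, h3] at h4
      have h5 := eq_inv_mul_of_mul_eq h4
      rw [h5, mul_neg, ← zpow_neg]
  have hXc : X ^ (c * j) = X⁻¹ := by
    obtain ⟨k, hk⟩ := hj
    have : c * j = (p : ℤ) * k - 1 := by linarith
    rw [this, zpow_sub, zpow_mul, zpow_natCast, hxp, one_zpow, one_mul, zpow_one]
  -- `s`
  set s : MulAut P := t * t' ^ j * t with hs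
  have hsF : s ∈ F.autGroup P :=
    Subgroup.mul_mem _ (Subgroup.mul_mem _ htF (Subgroup.zpow_mem _ ht'F j)) htF
  have htZZ : t Z = Z := htZ Z hz0Z
  have hsZ : s Z = X⁻¹ := by
    show t ((t' ^ j) (t Z)) = X⁻¹
    rw [htZZ, (ht'j j).2, hXc, map_mul, map_inv, htX, htZZ, mul_inv_rev, inv_mul_cancel_right]
  have hsX : s X = Z := by
    show t ((t' ^ j) (t X)) = Z
    rw [htX, map_mul, (ht'j j).2, (ht'j j).1, hXc, hcomm (X⁻¹ * Z) X, mul_inv_cancel_left, htZZ]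
  have hsD : ∀ d : P, (d : Ω) ∈ D → s d = d := by
    intro d hd
    show t ((t' ^ j) (t d)) = d
    have h1 : (t' ^ j) d = d := by
      have h2 : t' d = d := hDfix d hd
      have h3 : t' ∈ MulAction.stabilizer (MulAut P) d := h2
      exact (MulAction.stabilizer (MulAut P) d).zpow_mem h3 j
    rw [htZ d hd.1, h1, htZ d hd.1]
  set ε : MulAut P := s * s with hε
  have hεF : ε ∈ F.autGroup P := Subgroup.mul_mem _ hsF hsF
  have hεZ : ε Z = Z⁻¹ := by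
    show s (s Z) = _
    rw [hsZ, map_inv, hsX]
  have hεX : ε X = X⁻¹ := by
    show s (s X) = _
    rw [hsX, hsZ]
  have hεD : ∀ d : P, (d : Ω) ∈ D → ε d = d := by
    intro d hd
    show s (s d) = d
    rw [hsD d hd, hsD d hd]
  -- `Z = D ⟨z₀⟩`
  have hDZ : D ⊔ Subgroup.zpowers z0 = Zs S :=
    sup_eq_of_card (p := p) (hS.to_le cen_le) inf_le_left hz0Z hz0D (ess_ab_D hS h hP hx hxA hab hφ)
  have hdec : ∀ z ∈ Zs S, ∃ d ∈ D, ∃ i : ℤ, z = d * z0 ^ i := by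
    intro z hz
    rw [← hDZ] at hz
    exact mem_sup_cen (fun w hw => (mem_Zs.1 hw.1).2 z0 (hPS hz0P) |>.symm) hz
  have hεi := (mem_autGroup_iff hPS).1 hεF
  have hεz : ∀ z : P, (z : Ω) ∈ Zs S → ∀ d ∈ D, ∀ i : ℤ, (z : Ω) = d * z0 ^ i → ((ε z : P) : Ω) = d * z0 ^ (-i) := by
    intro z hz d hd i hzd
    have h1 : z = (⟨d, hZP hd.1⟩ : P) * Z ^ i := Subtype.ext hzd
    rw [h1, map_mul, map_zpow, hεD _ hd, hεZ, inv_zpow', Subgroup.coe_mul, Subgroup.coe_zpow]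
  have hεZs : ∀ z : P, (z : Ω) ∈ Zs S → ((ε z : P) : Ω) ∈ Zs S := by
    intro z hz
    obtain ⟨d, hd, i, hzd⟩ := hdec z hz
    rw [hεz z hz d hd i hzd]
    exact (Zs S).mul_mem hd.1 ((Zs S).zpow_mem hz0Z _)
  have htε : ∀ v : P, t (ε v) = ε (t v) := by
    intro v
    obtain ⟨n, b, hb, hv⟩ := h.mem_P hS hPS hx0P hx0A v.2
    have hbZ : b ∈ Zs S := by rw [← hinf]; exact hb
    have hv' : v = (⟨b, hb.2⟩ : P) * X ^ n := Subtype.ext hv
    rw [hv']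
    rw [map_mul, map_mul, map_mul, map_mul, map_zpow, map_zpow, map_zpow, map_zpow, htZ ⟨b, hb.2⟩ hbZ,
      htZ (ε ⟨b, hb.2⟩) (hεZs ⟨b, hb.2⟩ hbZ), hεX, map_inv, htX, map_mul, hεX, hεZ]
    congr 2
    rw [mul_inv_rev, hcomm]
  -- extension to `N_S(P)`
  have hZ2e : Zs S ⊔ Subgroup.zpowers a = Z2s S :=
    sup_eq_of_card (p := p) (hS.to_le Z2_le) Z_le_Z2 haZ2 haZ hZ2c.le
  have hN : normalizerIn S P ≤ ext S P (totA ε) := by
    have hPe : P ≤ ext S P (totA ε) := hεi.map.le_ext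
    have hae : a ∈ ext S P (totA ε) := by
      rw [mem_ext]
      refine ⟨haN.1, haN.2, a, haN.1, fun v hv => ?_⟩
      have h1 := htε ⟨v, hv⟩
      have h2 : t ⟨v, hv⟩ = ⟨a * v * a⁻¹, nrm_conj_mem haN hv⟩ := rfl
      rw [totA_of_mem _ (nrm_conj_mem haN hv), totA_of_mem _ hv, ← h2, ← h1, ht, cjA_apply]
    rw [h.eq_sup hS nrm_le (le_nrm hPS hx) hxA, ess_ab_nrm hS h hP hx hxA hab, inf_eq_right.2 hZ2A, ← hZ2e]
    exact sup_le (sup_le (hZP.trans hPe) (Subgroup.zpowers_le.2 hae)) (Subgroup.zpowers_le.2 (hPe hx))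
  obtain ⟨g, hg, hge⟩ := receptive_ext' (fn_receptive hS hF hP.2.1) hεi hN
  obtain ⟨γ, hγ, hγg⟩ := ext_top hS hF nrm_le
    (fun R hR β hβ hle => ess_no_over hS hF h hP hx hxA hab hβ hR hle) hg
  have hγP : ∀ v : P, γ v = ε v := by
    intro v
    rw [← hγg v (le_nrm hPS v.2), hge v v.2, totA_apply]
  have hγZ : ∀ d ∈ D, ∀ i : ℤ, γ (d * z0 ^ i) = d * z0 ^ (-i) := by
    intro d hd i
    have hz : d * z0 ^ i ∈ Zs S := (Zs S).mul_mem hd.1 ((Zs S).zpow_mem hz0Z i)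
    have h1 := hγP ⟨d * z0 ^ i, hZP hz⟩
    have h2 := hεz ⟨d * z0 ^ i, hZP hz⟩ hz d hd i rfl
    exact h1.trans h2
  have hγx : γ x0 = x0⁻¹ := by
    have h1 := hγP X
    rw [hεX] at h1
    exact h1
  refine ⟨γ, ⟨hγ, ?_, ?_, ?_⟩, ?_, ?_⟩
  · intro s' hs'
    obtain ⟨n, a', ha', rfl⟩ := h.gen hS (hPS hx0P) hx0A hs'
    rw [hγ.map.mul (h.le ha') (S.zpow_mem (hPS hx0P) n), hγ.map.zpow (hPS hx0P), hγx]
    have h1 : x0 ^ (-n) * a' * (x0 ^ (-n))⁻¹ ∈ A := h.nrm hS (S.zpow_mem (hPS hx0P) _) ha'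
    have h2 : γ a' * x0⁻¹ ^ n * (a' * x0 ^ n) = γ a' * (x0 ^ (-n) * a' * (x0 ^ (-n))⁻¹) := by
      rw [inv_zpow']; group
    rw [h2]
    exact A.mul_mem (h.map_A hγ ha') h1
  · intro w hw
    obtain ⟨i, rfl⟩ := hgen z0 hz0Z0 hz0ne w hw
    have h1 := hγZ 1 D.one_mem i
    rw [one_mul, one_mul] at h1
    rw [h1, zpow_neg]
  · intro z hz
    obtain ⟨d, hd, i, rfl⟩ := hdec z hz
    rw [hγZ d hd i]
    have h1 : (d * z0 ^ i)⁻¹ * (d * z0 ^ (-i)) = z0 ^ (-i) * z0 ^ (-i) := by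
      rw [mul_inv_rev, ← zpow_neg]
      group
    rw [h1]
    exact (Z0s S).mul_mem ((Z0s S).zpow_mem hz0Z0 _) ((Z0s S).zpow_mem hz0Z0 _)
  · intro z hz
    obtain ⟨d, hd, i, rfl⟩ := hdec z hz
    rw [hγZ d hd i]
    constructor
    · intro h1
      have h2 : z0 ^ (-i) = z0 ^ i := mul_left_cancel h1
      have h3 : z0 ^ (2 * i) = 1 := by
        have : z0 ^ (2 * i) = z0 ^ i * z0 ^ i := by rw [← zpow_add]; ring_nf
        rw [this]
        nth_rewrite 1 [← h2]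
        rw [← zpow_add, neg_add_cancel, zpow_zero]
      rw [zpow_one_iff hz0p hz0ne] at h3
      have h4 : (p : ℤ) ∣ i := by
        rcases (Nat.prime_iff_prime_int.1 hp).dvd_or_dvd h3 with h5 | h5
        · exfalso
          have h6 : p ∣ 2 := by exact_mod_cast h5
          exact hp2 ((Nat.prime_dvd_prime_iff_eq hp Nat.prime_two).1 h6)
        · exact h5
      rw [(zpow_one_iff hz0p hz0ne).2 h4, mul_one]
      exact hd
    · intro h1
      have h2 : z0 ^ i ∈ D := by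
        have := D.mul_mem (D.inv_mem hd) h1
        rwa [inv_mul_cancel_left] at this
      have h3 : z0 ^ i = 1 := by
        by_contra hne
        -- then `z0 ∈ D`
        have h4 : z0 ^ i ∈ Z0s S := (Z0s S).zpow_mem hz0Z0 i
        obtain ⟨k, hk⟩ := hgen _ h4 hne z0 hz0Z0
        exact hz0D (hk ▸ D.zpow_mem h2 k)
      rw [zpow_neg, h3, inv_one]
  · intro z hz
    obtain ⟨d, hd, i, rfl⟩ := hdec z hz
    exact ⟨d, hd, z0 ^ i, (Z0s S).zpow_mem hz0Z0 i, rfl⟩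

end good

end Cfsg.Agent.H1.Ua
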