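import Mathlib
import Cfsg.Agent.H1_UaE

set_option autoImplicit false
set_option linter.all false

/-! Uniqueness of the involutory automorphism on the centre; the main theorem on the centre. -/

namespace Cfsg.Agent.H1.Ua

open Cfsg Cfsg.FusionSystem Cfsg.Agent.H27.Fus Cfsg.Agent.H27.Grp Cfsg.Agent.H1.FusA
open scoped commutatorElement

universe u
variable {Ω : Type u} [Group Ω] {S A B K L P Q R : Subgroup Ω} {p : ℕ} {F : FusionSystem S} {f g α β γ : Ω → Ω}

section uniq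

variable [Fact p.Prime] [Finite S]

/-- `K_i`: iterated preimages of `Z` under `a ↦ [a,x]` -/
def Ki (hS : IsPGroup p S) (h : UAb p S A) {x : Ω} (hx : x ∈ S) (i : ℕ) : Subgroup Ω :=
  Nat.rec (Zs S) (fun _ K => (K.comap (dl hS h hx)).map A.subtype) i

theorem Ki_zero (hS : IsPGroup p S) (h : UAb p S A) {x : Ω} (hx : x ∈ S) : Ki hS h hx 0 = Zs S := rfl

theorem mem_Ki_succ (hS : IsPGroup p S) (h : UAb p S A) {x : Ω} (hx : x ∈ S) (i : ℕ) {a : Ω} :
    a ∈ Ki hS h hx (i + 1) ↔ a ∈ A ∧ a * x * a⁻¹ * x⁻¹ ∈ Ki hS h hx i := by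
  have h1 : Ki hS h hx (i + 1) = ((Ki hS h hx i).comap (dl hS h hx)).map A.subtype := rfl
  rw [h1, Subgroup.mem_map]
  constructor
  · rintro ⟨b, hb, rfl⟩
    exact ⟨b.2, hb⟩
  · rintro ⟨ha, h2⟩
    exact ⟨⟨a, ha⟩, h2, rfl⟩

theorem Ki_mono (hS : IsPGroup p S) (h : UAb p S A) {x : Ω} (hx : x ∈ S) (hxA : x ∉ A) (i : ℕ) :
    Ki hS h hx i ≤ Ki hS h hx (i + 1) := by
  induction i with
  | zero =>
    intro z hz
    rw [mem_Ki_succ]
    refine ⟨h.Z_le hS hz, ?_⟩
    have h1 := ((h.mem_Z hS hx hxA).1 hz).2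
    have h2 : z * x * z⁻¹ * x⁻¹ = 1 := by rw [h1]; group
    rw [h2]; exact Subgroup.one_mem _
  | succ i ih =>
    intro a ha
    rw [mem_Ki_succ] at ha ⊢
    exact ⟨ha.1, ih ha.2⟩

theorem Ki_exhaust (hS : IsPGroup p S) (h : UAb p S A) {x : Ω} (hx : x ∈ S) : ∃ n, A ≤ Ki hS h hx n := by
  have hnil : Group.IsNilpotent S := hS.isNilpotent
  obtain ⟨n, hn⟩ := (Subgroup.isNilpotent_iff_lowerCentralSeries S).1 hnil
  have key : ∀ i j, Wi hS h hx (j + i) ≤ Zs S → Wi hS h hx j ≤ Ki hS h hx i := by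
    intro i
    induction i with
    | zero => intro j hj; exact hj
    | succ i ih =>
      intro j hj a ha
      rw [mem_Ki_succ]
      refine ⟨Wi_le hS h hx j ha, ih (j + 1) ?_ ?_⟩
      · have : j + 1 + i = j + (i + 1) := by ring
        rw [this]; exact hj
      · rw [Wi_succ]
        exact (mem_br hS h hx).2 ⟨a, Wi_le hS h hx j ha, ha, rfl⟩
  refine ⟨n, ?_⟩
  have := key n 0 ?_
  · exact this
  · rw [zero_add]
    refine (Wi_le_lcs hS h hx n).trans ?_
    rw [hn]; exact bot_le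

/-- an automorphism trivial on `S/A`, `Z/Z₀` and `Z₀` is a `p`-element -/
theorem pelt (hS : IsPGroup p S) (h : UAb p S A) (hγ : Iso F S S γ) (h1 : ∀ s ∈ S, s⁻¹ * γ s ∈ A)
    (h2 : ∀ z ∈ Z0s S, γ z = z) (h3 : ∀ z ∈ Zs S, z⁻¹ * γ z ∈ Z0s S) : ∃ k, ∀ x : S, (hγ.aut ^ (p ^ k)) x = x := by
  obtain ⟨x, hx, hxA⟩ := h.exists_out
  have hpow : ∃ n, ∀ y ∈ S, y ^ (p ^ n) = 1 := exists_pow_card hS
  have hdl : ∀ a ∈ A, γ a * x * (γ a)⁻¹ * x⁻¹ = γ (a * x * a⁻¹ * x⁻¹) := by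
    intro a ha
    rw [map_comm_elt hγ (h.le ha) hx]
    have h4 := h.comm _ (h.map_A hγ ha) _ (h1 x hx)
    have h5 : γ x = x * (x⁻¹ * γ x) := by group
    rw [h5]
    have h6 : γ a * (x * (x⁻¹ * γ x)) * (γ a)⁻¹ * (x * (x⁻¹ * γ x))⁻¹ =
        γ a * x * ((x⁻¹ * γ x) * (γ a)⁻¹ * (x⁻¹ * γ x)⁻¹) * x⁻¹ := by group
    have h7 : (x⁻¹ * γ x) * (γ a)⁻¹ * (x⁻¹ * γ x)⁻¹ = (γ a)⁻¹ := by
      have h8 : Commute (x⁻¹ * γ x) (γ a)⁻¹ := (Commute.inv_right (show Commute (x⁻¹ * γ x) (γ a) from h4.symm))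
      rw [h8.eq]; group
    rw [h6, h7]
  have hdl2 : ∀ a ∈ A, (a⁻¹ * γ a) * x * (a⁻¹ * γ a)⁻¹ * x⁻¹ = (a * x * a⁻¹ * x⁻¹)⁻¹ * γ (a * x * a⁻¹ * x⁻¹) := by
    intro a ha
    rw [← hdl a ha]
    have e1 := (dl hS h hx).map_mul (⟨a, ha⟩⁻¹ : A) ⟨γ a, h.map_A hγ ha⟩
    rw [map_inv] at e1
    exact e1
  let C : ℕ → Subgroup Ω := fun i => Nat.casesOn i (Z0s S) (fun j => Ki hS h hx j)
  have hC0 : C 0 = Z0s S := rfl
  have hCs : ∀ j, C (j + 1) = Ki hS h hx j := fun j => rfl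
  have hmono : ∀ i, C i ≤ C (i + 1) := by
    intro i
    rcases i with _ | i
    · exact inf_le_left
    · exact Ki_mono hS h hx hxA i
  have hstep' : ∀ i, ∀ y ∈ Ki hS h hx (i + 1), y⁻¹ * γ y ∈ Ki hS h hx i := by
    intro i
    induction i with
    | zero =>
      intro a ha
      rw [mem_Ki_succ, Ki_zero] at ha
      rw [Ki_zero, h.mem_Z hS hx hxA]
      refine ⟨A.mul_mem (A.inv_mem ha.1) (h.map_A hγ ha.1), ?_⟩
      have h4 := hdl2 a ha.1
      have h5 : a * x * a⁻¹ * x⁻¹ ∈ Z0s S :=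
        ⟨ha.2, Subgroup.commutator_mem_commutator (h.le ha.1) hx⟩
      rw [h2 _ h5, inv_mul_cancel] at h4
      have h6 := congrArg (fun w => w * x * (a⁻¹ * γ a)) h4
      simpa [mul_assoc] using h6
    | succ i ih =>
      intro a ha
      rw [mem_Ki_succ] at ha
      rw [mem_Ki_succ]
      refine ⟨A.mul_mem (A.inv_mem ha.1) (h.map_A hγ ha.1), ?_⟩
      rw [hdl2 a ha.1]
      exact ih _ ha.2
  obtain ⟨n, hn⟩ := Ki_exhaust hS h hx
  have hchain := exists_pow_chain hpow (α := hγ.aut) C hmono ⟨0, fun y hy => by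
      rw [pow_zero, pow_one]
      exact Subtype.ext (h2 y hy)⟩ (by
      intro i y hy
      rcases i with _ | i
      · exact h3 y hy
      · exact hstep' i y hy) (n + 1)
  obtain ⟨k, hk⟩ := exists_pow_step hpow (α := hγ.aut) (A := ⊤) (B := C (n + 1)) le_top hchain
    (fun y _ => hn (h1 y y.2))
  exact ⟨k, fun y => hk y trivial⟩

theorem inner_of_pelt (hS : IsPGroup p S) (hF : F.IsSaturated p) (hγ : Iso F S S γ)
    (hk : ∃ k, ∀ x : S, (hγ.aut ^ (p ^ k)) x = x) {z : Ω} (hz : z ∈ Zs S) : γ z = z := by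
  obtain ⟨k, hk⟩ := hk
  obtain ⟨m, hm, hmi⟩ := Cfsg.Agent.H1.FusZ.exists_pow_inn hS hF hγ.aut_mem
  have hp := (Fact.out : p.Prime)
  have h1 : hγ.aut ^ (p ^ k) = 1 := MulEquiv.ext hk
  have hco : Nat.Coprime m (p ^ k) := by
    apply Nat.Coprime.pow_right
    exact ((Nat.Prime.coprime_iff_not_dvd hp).2 hm).symm
  have h2 : hγ.aut ∈ autInducedBy S S := by
    have h3 := Nat.gcd_eq_gcd_ab m (p ^ k)
    rw [hco.gcd_eq_one] at h3
    have h4 : hγ.aut = (hγ.aut ^ m) ^ (m.gcdA (p ^ k)) := by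
      calc hγ.aut = hγ.aut ^ ((1 : ℕ) : ℤ) := by simp
        _ = hγ.aut ^ ((m : ℤ) * m.gcdA (p ^ k) + ((p ^ k : ℕ) : ℤ) * m.gcdB (p ^ k)) := by rw [h3]
        _ = (hγ.aut ^ m) ^ (m.gcdA (p ^ k)) * (hγ.aut ^ (p ^ k)) ^ (m.gcdB (p ^ k)) := by
            rw [zpow_add, zpow_mul, zpow_mul, zpow_natCast, zpow_natCast]
        _ = _ := by rw [h1, one_zpow, mul_one]
    rw [h4]
    exact Subgroup.zpow_mem _ hmi _
  obtain ⟨s, hs, hsγ⟩ := mem_autInducedBy.1 h2
  have h5 := hsγ ⟨z, (mem_Zs.1 hz).1⟩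
  have h6 : γ z = s * z * s⁻¹ := h5
  rw [h6, (mem_Zs.1 hz).2 s hs, mul_inv_cancel_right]

theorem good_unique (hS : IsPGroup p S) (hF : F.IsSaturated p) (h : UAb p S A) (hα : Good F A α) (hβ : Good F A β)
    {z : Ω} (hz : z ∈ Zs S) : α z = β z := by
  have hγ : Iso F S S (β ∘ finv S α) := hα.iso.symm.trans hβ.iso
  have key : ∀ s ∈ S, (β ∘ finv S α) (α s) = β s := by
    intro s hs
    show β (finv S α (α s)) = β s
    rw [hα.iso.finv_left hs]
  have h1 : ∀ s ∈ S, s⁻¹ * (β ∘ finv S α) s ∈ A := by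
    intro s hs
    obtain ⟨u, hu, rfl⟩ := hα.iso.surj s hs
    rw [key u hu]
    have e2 := hα.neg u hu
    have e3 := hβ.neg u hu
    have e5 : (α u)⁻¹ * β u = u * ((α u * u)⁻¹ * (β u * u)) * u⁻¹ := by group
    rw [e5]
    exact h.nrm hS hu (A.mul_mem (A.inv_mem e2) e3)
  have h2 : ∀ z ∈ Z0s S, (β ∘ finv S α) z = z := by
    intro z hz
    have e1 : α z⁻¹ = z := by rw [hα.inv _ ((Z0s S).inv_mem hz), inv_inv]
    have e2 := key z⁻¹ (mem_Zs.1 ((Z0s S).inv_mem hz).1).1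
    rw [e1, hβ.inv _ ((Z0s S).inv_mem hz), inv_inv] at e2
    exact e2
  have h3 : ∀ z ∈ Zs S, z⁻¹ * (β ∘ finv S α) z ∈ Z0s S := by
    intro z hz
    obtain ⟨u, hu, rfl⟩ := hα.iso.surj z (mem_Zs.1 hz).1
    have huZ : u ∈ Zs S := by
      have := map_Zs hα.iso.symm hz
      rwa [hα.iso.finv_left hu] at this
    rw [key u hu]
    have e1 := (Z0s S).mul_mem ((Z0s S).inv_mem (hα.tri u huZ)) (hβ.tri u huZ)
    have e2 : (u⁻¹ * α u)⁻¹ * (u⁻¹ * β u) = (α u)⁻¹ * β u := by group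
    rwa [e2] at e1
  have h4 := inner_of_pelt hS hF hγ (pelt hS h hγ h1 h2 h3) (map_Zs hα.iso hz)
  rw [key z (mem_Zs.1 hz).1] at h4
  exact h4.symm

end uniq

section main

variable [Fact p.Prime] [Finite S]

theorem Zs_ne_bot (hS : IsPGroup p S) (h : UAb p S A) : Zs S ≠ ⊥ := by
  obtain ⟨x, hx, hxA⟩ := h.exists_out
  haveI : Nontrivial S := ⟨⟨⟨x, hx⟩, 1, fun e => hxA (by
    have : x = 1 := congrArg Subtype.val e
    rw [this]; exact A.one_mem)⟩⟩
  haveI := hS.center_nontrivial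
  obtain ⟨⟨z, hz⟩, hz1⟩ := exists_ne (1 : Subgroup.center S)
  intro hb
  apply hz1
  have h1 : (z : Ω) ∈ Zs S := by
    rw [mem_Zs]
    refine ⟨z.2, fun s hs => ?_⟩
    exact congrArg Subtype.val (Subgroup.mem_center_iff.1 hz ⟨s, hs⟩)
  rw [hb, Subgroup.mem_bot] at h1
  exact Subtype.ext (Subtype.ext h1)

theorem exists_ab_ess (hS : IsPGroup p S) (hF : F.IsSaturated p) (h : UAb p S A) (hcore : F.core = ⊥)
    (hAe : ¬ F.IsEssential p A) :
    ∃ P, F.IsEssential p P ∧ ∀ a ∈ P, ∀ b ∈ P, a * b = b * a := by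
  by_contra hcon
  push Not at hcon
  apply Zs_ne_bot hS h
  rw [eq_bot_iff, ← hcore]
  apply le_core
  apply normal_of_essential hS hF
  rintro P (rfl | hP)
  · refine ⟨cen_le, fun f hf => im_self hf.map cen_le fun z hz => map_Zs hf hz⟩
  · have hnab : ¬ ∀ a ∈ P, ∀ b ∈ P, a * b = b * a := by
      obtain ⟨a, ha, b, hb, hab⟩ := hcon P hP
      exact fun hc => hab (hc a ha b hb)
    have hPA : P ≠ A := fun e => hAe (e ▸ hP)
    obtain ⟨x, hx, hxA⟩ := SetLike.not_le_iff_exists.1 (ess_not_le h hP hPA)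
    refine ⟨Z_le_ess hP, fun f hf => im_self hf.map (Z_le_ess hP) fun z hz => ?_⟩
    have h1 := ess_nab_inv hS h hP hx hxA hnab hf.aut hf.aut_mem ⟨z, Z_le_ess hP hz⟩ hz
    exact h1

/-- the main structure theorem -/
theorem main (hS : IsPGroup p S) (hF : F.IsSaturated p) (hp2 : p ≠ 2) (h : UAb p S A) (hcore : F.core = ⊥)
    (hAe : ¬ F.IsEssential p A) : (∃ x ∈ S, x ∉ A ∧ F.IsEssential p (Zs S ⊔ Subgroup.zpowers x)) ∧
      Nat.card (Zs S) = p ∧ Zs S ≤ ⁅S, S⁆ ∧ Nat.card ↥(Z0s S) = p := by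
  have hp := (Fact.out : p.Prime)
  obtain ⟨P, hP, hab⟩ := exists_ab_ess hS hF h hcore hAe
  have hPA : P ≠ A := fun e => hAe (e ▸ hP)
  obtain ⟨x, hx, hxA⟩ := SetLike.not_le_iff_exists.1 (ess_not_le h hP hPA)
  obtain ⟨φ, hφ, hφH⟩ := ess_exists_out hS hF hP
  obtain ⟨α, hα, hαD, hαdec⟩ := exists_good hS hF hp2 h hP hx hxA hab hφ hφH
  have hcD := ess_ab_D hS h hP hx hxA hab hφ
  set C := Zs S ⊓ im (Zs S) (totA φ) with hC
  have hCZ : C ≤ Zs S := inf_le_left
  -- invariance under `Aut_F(S)`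
  have htop : ∀ f, Iso F S S f → ∀ z ∈ C, f z ∈ C := by
    intro f hf z hz
    have hzS : z ∈ S := (mem_Zs.1 (hCZ hz)).1
    have hfz := map_Zs hf (hCZ hz)
    have hgood : Good F A (f ∘ (α ∘ finv S f)) := by
      have hi : Iso F S S (f ∘ (α ∘ finv S f)) := (hf.symm.trans hα.iso).trans hf
      have key : ∀ s ∈ S, (f ∘ (α ∘ finv S f)) (f s) = f (α s) := by
        intro s hs
        show f (α (finv S f (f s))) = f (α s)
        rw [hf.finv_left hs]
      refine ⟨hi, ?_, ?_, ?_⟩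
      · intro s hs
        obtain ⟨u, hu, rfl⟩ := hf.surj s hs
        rw [key u hu, ← hf.map.mul (hα.iso.maps u hu) hu]
        exact h.map_A hf (hα.neg u hu)
      · intro w hw
        obtain ⟨u, hu, rfl⟩ := hf.surj w (mem_Zs.1 hw.1).1
        have huZ : u ∈ Z0s S := by
          refine ⟨?_, ?_⟩
          · have := map_Zs hf.symm hw.1
            rwa [hf.finv_left hu] at this
          · have := h.map_comm hS hf.symm hw.2
            rwa [hf.finv_left hu] at this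
        rw [key u hu, hα.inv u huZ, hf.map.inv hu]
      · intro w hw
        obtain ⟨u, hu, rfl⟩ := hf.surj w (mem_Zs.1 hw).1
        have huZ : u ∈ Zs S := by
          have := map_Zs hf.symm hw
          rwa [hf.finv_left hu] at this
        rw [key u hu, ← hf.map.inv hu, ← hf.map.mul (S.inv_mem hu) (hα.iso.maps u hu)]
        have h1 := hα.tri u huZ
        exact ⟨map_Zs hf h1.1, h.map_comm hS hf h1.2⟩
    have h1 := good_unique hS hF h hgood hα hfz
    have h2 : (f ∘ (α ∘ finv S f)) (f z) = f (α z) := by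
      show f (α (finv S f (f z))) = f (α z)
      rw [hf.finv_left hzS]
    rw [h2, (hαD z (hCZ hz)).2 hz] at h1
    exact (hαD (f z) hfz).1 h1.symm
  have hCbot : C = ⊥ := by
    rw [eq_bot_iff, ← hcore]
    apply le_core
    apply normal_of_essential hS hF
    rintro R (rfl | hR)
    · exact ⟨hCZ.trans cen_le, fun f hf => im_self hf.map (hCZ.trans cen_le) (htop f hf)⟩
    · have hRS := hR.1.1
      have hRA : R ≠ A := fun e => hAe (e ▸ hR)
      obtain ⟨y, hy, hyA⟩ := SetLike.not_le_iff_exists.1 (ess_not_le h hR hRA)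
      have hCR : C ≤ R := hCZ.trans (Z_le_ess hR)
      refine ⟨hCR, fun f hf => im_self hf.map hCR ?_⟩
      by_cases hRab : ∀ a ∈ R, ∀ b ∈ R, a * b = b * a
      · -- abelian
        have hDC : ∀ ψ ∈ F.autGroup R, ψ ∉ Hext F R → Zs S ⊓ im (Zs S) (totA ψ) = C := by
          intro ψ hψ hψH
          obtain ⟨β, hβ, hβD, -⟩ := exists_good hS hF hp2 h hR hy hyA hRab hψ hψH
          ext z
          constructor
          · intro hz
            have hzZ : z ∈ Zs S := hz.1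
            rw [← hβD z hzZ, ← good_unique hS hF h hα hβ hzZ, hαD z hzZ] at hz
            exact hz
          · intro hz
            have hzZ : z ∈ Zs S := hz.1
            rw [← hαD z hzZ, good_unique hS hF h hα hβ hzZ, hβD z hzZ] at hz
            exact hz
        have hinvH : ∀ {ψ : MulAut R}, ψ ∉ Hext F R → ψ⁻¹ ∉ Hext F R := fun hψ h1 =>
          hψ (by simpa using Subgroup.inv_mem _ h1)
        have hout : ∀ ψ ∈ F.autGroup R, ψ ∉ Hext F R → ∀ v : R, (v : Ω) ∈ C → ((ψ v : R) : Ω) ∈ C := by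
          intro ψ hψ hψH v hv
          have hψi : ψ⁻¹ ∈ F.autGroup R := Subgroup.inv_mem _ hψ
          have h1 := hv
          rw [← hDC ψ⁻¹ hψi (hinvH hψH)] at h1
          have hm1 := ((mem_autGroup_iff hRS).1 hψi).map.mono (Z_le_ess hR)
          have hm2 := ((mem_autGroup_iff hRS).1 hψ).map.mono (Z_le_ess hR)
          obtain ⟨w, hw, hwv⟩ := hm1.mem_im.1 h1.2
          rw [totA_of_mem _ (Z_le_ess hR hw)] at hwv
          have h2 : ψ v = ⟨w, Z_le_ess hR hw⟩ := by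
            have : ψ⁻¹ ⟨w, Z_le_ess hR hw⟩ = v := Subtype.ext hwv
            rw [← this, MulAut.apply_inv_self]
          rw [← hDC ψ hψ hψH]
          refine ⟨?_, ?_⟩
          · rw [h2]; exact hw
          · refine hm2.mem_im.2 ⟨v, hCZ hv, ?_⟩
            rw [totA_apply]
        have hall : ∀ ψ ∈ F.autGroup R, ∀ v : R, (v : Ω) ∈ C → ((ψ v : R) : Ω) ∈ C := by
          intro ψ hψ v hv
          by_cases hψH : ψ ∈ Hext F R
          · obtain ⟨g, hg, hgH⟩ := ess_exists_out hS hF hR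
            have h1 : ψ * g ∉ Hext F R := fun h2 => hgH (by
              have := Subgroup.mul_mem _ (Subgroup.inv_mem _ hψH) h2
              rwa [inv_mul_cancel_left] at this)
            have h2 := hout g⁻¹ (Subgroup.inv_mem _ hg) (hinvH hgH) v hv
            have h3 := hout (ψ * g) (Subgroup.mul_mem _ hψ hg) h1 _ h2
            have h4 : (ψ * g) (g⁻¹ v) = ψ v := by
              rw [← MulAut.mul_apply, mul_inv_cancel_right]
            rwa [h4] at h3
          · exact hout ψ hψ hψH v hv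
        intro z hz
        exact hall hf.aut hf.aut_mem ⟨z, hCR hz⟩ hz
      · -- nonabelian
        have hZR := Z_le_ess (F := F) hR
        have hfZ : ∀ z ∈ Zs S, f z ∈ Zs S := fun z hz =>
          ess_nab_inv hS h hR hy hyA hRab hf.aut hf.aut_mem ⟨z, hZR hz⟩ hz
        haveI : Finite (Zs S) := finite_of_le cen_le
        have hfi : Iso F (Zs S) (Zs S) f := iso_of_card_le (hf.map.mono hZR) hfZ le_rfl
        have hZfn : F.IsFullyNormalized (Zs S) := by
          refine ⟨cen_le, fun Q hQ => ?_⟩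
          have h1 : normalizerIn S (Zs S) = S := by
            apply le_antisymm nrm_le
            intro s hs
            refine mem_nrm_of_forall cen_le hs fun w hw => ?_
            rw [(mem_Zs.1 hw).2 s hs, mul_inv_cancel_right]; exact hw
          rw [h1]
          exact card_le_of_le nrm_le
        have hN : S ≤ ext S (Zs S) f := by
          intro s hs
          rw [mem_ext]
          refine ⟨hs, ?_, s, hs, fun z hz => ?_⟩
          · refine (mem_nrm_of_forall (S := S) cen_le hs fun w hw => ?_).2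
            rw [(mem_Zs.1 hw).2 s hs, mul_inv_cancel_right]; exact hw
          · rw [(mem_Zs.1 hz).2 s hs, mul_inv_cancel_right, (mem_Zs.1 (hfZ z hz)).2 s hs, mul_inv_cancel_right]
        obtain ⟨g, hg, hge⟩ := receptive_ext' (fn_receptive hS hF hZfn) hfi hN
        have hgi : Iso F S S g := iso_of_card_le hg (fun s hs => hg.mem hs) le_rfl
        intro z hz
        rw [← hge z (hCZ hz)]
        exact htop g hgi z hz
  have hZZ0 : Zs S ≤ Z0s S := by
    intro z hz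
    obtain ⟨d, hd, w, hw, rfl⟩ := hαdec z hz
    rw [hCbot, Subgroup.mem_bot] at hd
    rw [hd, one_mul]; exact hw
  have hZeq : Zs S = Z0s S := le_antisymm hZZ0 inf_le_left
  have hZ0c := ess_card_comm hS hF h hP hPA
  refine ⟨⟨x, hP.1.1 hx, hxA, ?_⟩, ?_, hZZ0.trans inf_le_right, hZ0c⟩
  · rw [← ess_ab_inf hS h hP hx hxA hab, ← h.eq_sup hS hP.1.1 hx hxA]
    exact hP
  · rw [hZeq]; exact hZ0c

end main

end Cfsg.Agent.H1.Ua
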