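import Mathlib
import Cfsg.Agent.H20_Basic
import Cfsg.Agent.H1_Coprime2

set_option autoImplicit false

namespace Cfsg.Agent.H20.AS

variable {G : Type*} [Group G]

/-- for a nonabelian simple normal subgroup `T` and a normal subgroup `N`: `T ≤ N` or `N` centralizes `T`. -/
theorem le_or_le_centralizer (T N : Subgroup G) [hT : T.Normal] [hN : N.Normal] (hs : IsSimpleGroup T) :
    T ≤ N ∨ N ≤ Subgroup.centralizer (T : Set G) := by
  rcases hs.eq_bot_or_eq_top_of_normal (N.subgroupOf T) inferInstance with h | h
  · right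
    intro n hn
    rw [Subgroup.mem_centralizer_iff]
    intro t ht
    have h2 : t * (n * t⁻¹ * n⁻¹) ∈ T := T.mul_mem ht (hT.conj_mem _ (T.inv_mem ht) n)
    have h3 : t * (n * t⁻¹ * n⁻¹) ∈ N := by
      have : t * (n * t⁻¹ * n⁻¹) = (t * n * t⁻¹) * n⁻¹ := by group
      rw [this]
      exact N.mul_mem (hN.conj_mem n hn t) (N.inv_mem hn)
    have h4 : (⟨_, h2⟩ : T) ∈ N.subgroupOf T := h3
    rw [h, Subgroup.mem_bot] at h4
    have h5 : t * (n * t⁻¹ * n⁻¹) = 1 := congrArg Subtype.val h4
    calc t * n = (t * (n * t⁻¹ * n⁻¹)) * n * t := by group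
      _ = n * t := by rw [h5]; group
  · left
    rwa [Subgroup.subgroupOf_eq_top] at h

theorem not_comm_of_prime_card {T : Subgroup G} (hT : ¬ IsMulCommutative T) (hp : (Nat.card T).Prime) : False := by
  apply hT
  have : Fact (Nat.card T).Prime := ⟨hp⟩
  have hc : IsCyclic T := isCyclic_of_prime_card rfl
  exact ⟨⟨fun a b => hc.commGroup.mul_comm a b⟩⟩

theorem comm_of_simple_pgroup [Finite G] {T : Subgroup G} (hs : IsSimpleGroup T) {r : ℕ} [Fact r.Prime] (hr : IsPGroup r T) :
    IsMulCommutative T := by
  have hnt : Nontrivial T := hs.toNontrivial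
  have h2 := hr.center_nontrivial
  rcases hs.eq_bot_or_eq_top_of_normal (Subgroup.center T) inferInstance with h | h
  · rw [h] at h2
    exact absurd (inferInstance : Subsingleton (⊥ : Subgroup T)) (not_subsingleton _)
  · refine ⟨⟨fun a b => ?_⟩⟩
    have : a ∈ Subgroup.center T := h ▸ Subgroup.mem_top a
    exact (Subgroup.mem_center_iff.1 this b).symm

/-- a subgroup of prime order with self-centralizing normalizer is Sylow and has a normal complement -/
theorem exists_normal_complement_prime [Finite G] (H : Subgroup G) (hp : (Nat.card H).Prime)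
    (hn : Subgroup.normalizer (H : Set G) = H) : ∃ K : Subgroup G, K.Normal ∧ Subgroup.IsComplement' K H ∧ ¬ Nat.card H ∣ Nat.card K := by
  have hfact : Fact (Nat.card H).Prime := ⟨hp⟩
  have hH : IsPGroup (Nat.card H) H := IsPGroup.of_card (n := 1) (by simp)
  obtain ⟨P, hP⟩ := hH.exists_le_sylow
  have hPH : (P : Subgroup G) = H := by
    by_contra hne
    have hlt : H < (P : Subgroup G) := lt_of_le_of_ne hP (Ne.symm hne)
    have hnil : Group.IsNilpotent (P : Subgroup G) := P.isPGroup'.isNilpotent
    have h1 : H.subgroupOf P < ⊤ := by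
      rw [lt_top_iff_ne_top]
      intro h
      rw [Subgroup.subgroupOf_eq_top] at h
      exact absurd (le_antisymm h hP) hne
    have h2 := Group.normalizerCondition_of_isNilpotent (G := (P : Subgroup G)) (H.subgroupOf P) h1
    obtain ⟨x, hx1, hx2⟩ := SetLike.exists_of_lt h2
    apply hx2
    rw [Subgroup.mem_subgroupOf]
    suffices hsuff : (x : G) ∈ Subgroup.normalizer (H : Set G) by
      have h9 : Subgroup.normalizer (H : Set G) ≤ H := hn.le
      exact h9 hsuff
    rw [Subgroup.mem_normalizer_iff] at hx1 ⊢
    intro y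
    constructor
    · intro hy
      have := (hx1 ⟨y, hP hy⟩).1 hy
      exact this
    · intro hy
      have hyP : y ∈ (P : Subgroup G) := by
        have h3 := (P : Subgroup G).mul_mem ((P : Subgroup G).mul_mem ((P : Subgroup G).inv_mem x.2) (hP hy)) x.2
        have e : (x : G)⁻¹ * ((x : G) * y * (x : G)⁻¹) * (x : G) = y := by group
        rwa [e] at h3
      exact (hx1 ⟨y, hyP⟩).2 hy
  have hcomm : Subgroup.normalizer ((P : Subgroup G) : Set G) ≤ Subgroup.centralizer ((P : Subgroup G) : Set G) := by
    rw [hPH, hn]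
    have hc : IsCyclic H := isCyclic_of_prime_card rfl
    intro x hx
    rw [Subgroup.mem_centralizer_iff]
    intro y hy
    exact congrArg Subtype.val (hc.commGroup.mul_comm (⟨y, hy⟩ : H) ⟨x, hx⟩)
  have hc := MonoidHom.ker_transferSylow_isComplement' P hcomm
  refine ⟨(MonoidHom.transferSylow P hcomm).ker, inferInstance, ?_, ?_⟩
  · convert hc using 1
    exact hPH.symm
  · have h1 := hc.card_mul_card
    have h2 : Nat.card (MonoidHom.transferSylow P hcomm).ker = (P : Subgroup G).index := by
      have h3 := (P : Subgroup G).card_mul_index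
      have hpos : 0 < Nat.card (P : Subgroup G) := Nat.card_pos
      have h4 : Nat.card (P : Subgroup G) * Nat.card (MonoidHom.transferSylow P hcomm).ker = Nat.card (P : Subgroup G) * (P : Subgroup G).index := by
        rw [h3, ← h1, mul_comm]
      exact Nat.eq_of_mul_eq_mul_left hpos h4
    rw [h2]
    exact P.not_dvd_index

theorem maximal_not_prime [Finite G] (T : Subgroup G) [T.Normal] (hT : IsSimpleGroup T) (hTc : ¬ IsMulCommutative T)
    (hC : Subgroup.centralizer (T : Set G) = ⊥) (H : Subgroup G) (hmax : IsCoatom H) : ¬ (Nat.card H).Prime := by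
  intro hp
  have hfact : Fact (Nat.card H).Prime := ⟨hp⟩
  have hHne : H ≠ ⊥ := by
    rintro rfl
    rw [Subgroup.card_bot] at hp
    exact Nat.not_prime_one hp
  have hTne : T ≠ ⊥ := by
    have := hT.toNontrivial
    exact (Subgroup.nontrivial_iff_ne_bot T).1 this
  have hTH : ¬ T ≤ H ∨ True := Or.inr trivial
  -- H is not normal
  have hHn : ¬ H.Normal := by
    intro hn
    rcases le_or_le_centralizer T H hT with h | h
    · -- T of prime order
      have h1 : Nat.card T ∣ Nat.card H := Subgroup.card_dvd_of_le h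
      rcases (Nat.dvd_prime hp).1 h1 with h2 | h2
      · exact hTne (Subgroup.card_eq_one.1 h2)
      · exact not_comm_of_prime_card hTc (h2 ▸ hp)
    · rw [hC, le_bot_iff] at h
      exact hHne h
  have hnorm : Subgroup.normalizer (H : Set G) = H := by
    have h1 : H ≤ Subgroup.normalizer (H : Set G) := Subgroup.le_normalizer
    rcases h1.eq_or_lt with h | h
    · exact h.symm
    · exact absurd (Subgroup.normalizer_eq_top_iff.1 (hmax.2 _ h)) hHn
  obtain ⟨K, hK, hKc, hKd⟩ := exists_normal_complement_prime H hp hnorm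
  have hTK : T ≤ K := by
    rcases le_or_le_centralizer T K hT with h | h
    · exact h
    · exfalso
      rw [hC, le_bot_iff] at h
      apply hmax.1
      rw [h] at hKc
      exact Subgroup.isComplement'_bot_left.1 hKc
  have hcop : (Nat.card H).Coprime (Nat.card T) := by
    rw [Nat.Prime.coprime_iff_not_dvd hp]
    intro h
    exact hKd (h.trans (Subgroup.card_dvd_of_le hTK))
  -- take a prime r
  have h1 : Nat.card T ≠ 1 := fun h => hTne (Subgroup.card_eq_one.1 h)
  obtain ⟨r, hr, hrd⟩ := Nat.exists_prime_and_dvd h1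
  have hrf : Fact r.Prime := ⟨hr⟩
  have hHT : H ≤ Subgroup.normalizer (T : Set G) := by
    rw [Subgroup.normalizer_eq_top_iff.2 (inferInstance : T.Normal)]
    exact le_top
  have hsolv : Group.IsSolvable H := by
    have hc : IsCyclic H := isCyclic_of_prime_card rfl
    exact Group.isSolvable_of_comm (fun a b => hc.commGroup.mul_comm a b)
  obtain ⟨P, hP⟩ := H1.Coprime.invariant_sylow_exists H T hHT hcop (Or.inl hsolv) r
  set R := (P : Subgroup T).map T.subtype with hR
  have hRle : R ≤ T := Subgroup.map_subtype_le _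
  have hRne : R ≠ ⊥ := by
    intro h
    have h2 := (Subgroup.map_eq_bot_iff_of_injective _ T.subtype_injective).1 h
    have h3 := P.card_eq_multiplicity
    rw [h2, Subgroup.card_bot] at h3
    have h4 : 0 < (Nat.card T).factorization r := hr.factorization_pos_of_dvd Nat.card_pos.ne' hrd
    have h5 : 1 < r ^ (Nat.card T).factorization r := Nat.one_lt_pow h4.ne' hr.one_lt
    omega
  -- H < normalizer R
  have hlt : H < Subgroup.normalizer (R : Set G) := by
    refine lt_of_le_of_ne hP ?_
    intro h
    have h2 : R ≤ H := by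
      rw [h]; exact Subgroup.le_normalizer
    have h3 : Nat.card R ∣ Nat.card H := Subgroup.card_dvd_of_le h2
    have h4 : Nat.card R ∣ Nat.card T := Subgroup.card_dvd_of_le hRle
    have h5 := Nat.dvd_gcd h3 h4
    rw [hcop] at h5
    exact hRne (Subgroup.card_eq_one.1 (Nat.dvd_one.1 h5))
  have htop := hmax.2 _ hlt
  have hRn : R.Normal := Subgroup.normalizer_eq_top_iff.1 htop
  have hTR : T ≤ R := by
    rcases le_or_le_centralizer T R hT with h | h
    · exact h
    · rw [hC, le_bot_iff] at h
      exact absurd h hRne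
  apply hTc
  have hTp : IsPGroup r T := by
    have : IsPGroup r R := P.isPGroup'.map _
    exact this.to_le hTR
  exact comm_of_simple_pgroup hT hTp

end Cfsg.Agent.H20.AS
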