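import Cfsg.Agent.H20_HT2
set_option autoImplicit false

/-! orders of p-elements in affine groups -/
namespace Cfsg.Agent.H20.AffOrd
open MulAction Cfsg.Agent.H20.HT2

theorem nilp_pow {K V : Type*} [Field K] [AddCommGroup V] [Module K V] [FiniteDimensional K V]
    (B : Module.End K V) (hB : IsNilpotent B) : B ^ (Module.finrank K V) = 0 := by
  have h1 := hB.charpoly_eq_X_pow_finrank
  have h2 := LinearMap.aeval_self_charpoly B
  rw [h1, map_pow, Polynomial.aeval_X] at h2
  exact h2

theorem frob {p : ℕ} [Fact p.Prime] {R : Type*} [Ring R] [Algebra (ZMod p) R] (A : R) (k : ℕ) :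
    (A - 1) ^ (p ^ k) = A ^ (p ^ k) - 1 := by
  have h1 : (Polynomial.X - 1 : Polynomial (ZMod p)) ^ (p ^ k) = Polynomial.X ^ (p ^ k) - 1 := by
    rw [sub_pow_char_pow, one_pow]
  have h2 := congrArg (Polynomial.aeval A) h1
  simpa using h2

theorem geom {p : ℕ} [Fact p.Prime] {R : Type*} [Ring R] [Algebra (ZMod p) R] (A : R) (k : ℕ) :
    ∑ i ∈ Finset.range (p ^ k), A ^ i = (A - 1) ^ (p ^ k - 1) := by
  have h1 : (∑ i ∈ Finset.range (p ^ k), (Polynomial.X : Polynomial (ZMod p)) ^ i) = (Polynomial.X - 1) ^ (p ^ k - 1) := by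
    have hX : (Polynomial.X - 1 : Polynomial (ZMod p)) ≠ 0 := Polynomial.X_sub_C_ne_zero 1
    apply mul_right_cancel₀ hX
    rw [geom_sum_mul, ← pow_succ, Nat.sub_add_cancel (Nat.one_le_pow _ _ (Fact.out : p.Prime).pos)]
    rw [sub_pow_char_pow, one_pow]
  have h2 := congrArg (Polynomial.aeval A) h1
  simpa using h2

variable {G Ω : Type*} [Group G] [Finite G] [MulAction G Ω] [FaithfulSMul G Ω] [Finite Ω]

theorem exists_model.{u} {G : Type u} [Group G] (p : ℕ) [hp : Fact p.Prime] (N : Subgroup G) (hNc : IsMulCommutative N)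
    (hNp : ∀ n ∈ N, n ^ p = 1) :
    ∃ (V : Type u) (_ : AddCommGroup V) (_ : Module (ZMod p) V), Nonempty (Multiplicative V ≃* N) := by
  let i : CommGroup N := { (inferInstance : Group N) with mul_comm := hNc.is_comm.comm }
  have hmod : ∀ x : Additive N, p • x = 0 := by
    intro x
    have h1 : (Additive.toMul x : N) ^ p = 1 := Subtype.ext (by
      rw [Subgroup.coe_pow]; exact hNp _ (Additive.toMul x).2)
    exact congrArg Additive.ofMul h1
  exact ⟨Additive N, @Additive.addCommGroup _ i, @AddCommGroup.zmodModule p _ (@Additive.addCommGroup _ i) hmod,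
    ⟨{ toFun := fun x => Additive.toMul (Multiplicative.toAdd x)
       invFun := fun x => Multiplicative.ofAdd (Additive.ofMul x)
       left_inv := fun x => rfl
       right_inv := fun x => rfl
       map_mul' := fun x y => rfl }⟩⟩

theorem main' (p m : ℕ) [hp : Fact p.Prime] (hcard : Nat.card Ω = p ^ m)
    (N : Subgroup G) [hN : N.Normal] {V : Type*} [AddCommGroup V] [Module (ZMod p) V]
    (e : Multiplicative V ≃* N)
    (hNt : IsPretransitive N Ω) (hNr : ∀ ω : Ω, stabilizer N ω = ⊥)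
    (g : G) (r : ℕ) (hr : 1 ≤ r) (hg : orderOf g = p ^ r) : p ^ (r - 1) ≤ m := by
  classical
  by_contra hcon
  push Not at hcon
  have hfin : Finite V := Finite.of_equiv N (e.symm.toEquiv.trans Multiplicative.toAdd)
  set ι : V → G := fun v => ((e (Multiplicative.ofAdd v) : N) : G) with hι
  have hι0 : ι 0 = 1 := by
    have : e (Multiplicative.ofAdd (0 : V)) = 1 := by rw [ofAdd_zero, map_one]
    rw [hι]; simp only; rw [this]; rfl
  have hιadd : ∀ v w, ι (v + w) = ι v * ι w := by
    intro v w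
    rw [hι]; simp only
    rw [ofAdd_add, map_mul, Subgroup.coe_mul]
  have hιinj : Function.Injective ι := by
    intro v w h
    exact Multiplicative.ofAdd.injective (e.injective (Subtype.ext h))
  have hιN : ∀ v, ι v ∈ N := fun v => (e (Multiplicative.ofAdd v)).2
  have hιsurj : ∀ x ∈ N, ∃ v, ι v = x := by
    intro x hx
    refine ⟨Multiplicative.toAdd (e.symm ⟨x, hx⟩), ?_⟩
    rw [hι]; simp only
    rw [ofAdd_toAdd, MulEquiv.apply_symm_apply]
  choose c hc using fun v => hιsurj (g * ι v * g⁻¹) (hN.conj_mem _ (hιN v) g)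
  let A : V →ₗ[ZMod p] V :=
    AddMonoidHom.toZModLinearMap p (AddMonoidHom.mk' c (by
      intro v w
      apply hιinj
      rw [hc, hιadd, hιadd, hc, hc]; group))
  have hA : ∀ v, ι (A v) = g * ι v * g⁻¹ := hc
  have hApow : ∀ (k : ℕ) (x : V), ι ((A ^ k) x) = g ^ k * ι x * (g ^ k)⁻¹ := by
    intro k
    induction k with
    | zero => intro x; simp
    | succ k ih =>
      intro x
      rw [pow_succ', Module.End.mul_apply, hA, ih, pow_succ']
      group
  have hnil : IsNilpotent (A - 1) := by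
    refine ⟨p ^ r, ?_⟩
    have h1 : A ^ (p ^ r) = 1 := by
      ext x
      apply hιinj
      rw [hApow, ← hg, pow_orderOf_eq_one]
      simp
    rw [frob, h1, sub_self]
  have hrank : Module.finrank (ZMod p) V = m := by
    have h1 := Module.natCard_eq_pow_finrank (K := ZMod p) (V := V)
    obtain ⟨ω⟩ : Nonempty Ω := by
      have : 0 < Nat.card Ω := by rw [hcard]; exact Nat.pow_pos hp.out.pos
      exact (Nat.card_pos_iff.mp this).1
    have h2 : Nat.card V = p ^ m := by
      rw [← hcard, ← card_N N hNt hNr ω]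
      exact Nat.card_congr (Multiplicative.ofAdd.trans e.toEquiv)
    rw [h2, Nat.card_zmod] at h1
    exact (Nat.pow_right_injective hp.out.two_le h1).symm
  have hz : (A - 1) ^ (p ^ (r - 1) - 1) = 0 := by
    have h1 := nilp_pow (A - 1) hnil
    rw [hrank] at h1
    exact pow_eq_zero_of_le (by omega) h1
  rw [← geom] at hz
  have hg1 : g ^ (p ^ (r - 1)) = 1 := by
    apply eq_of_smul_eq_smul (α := Ω)
    intro ω
    rw [one_smul]
    obtain ⟨b, hb, hbω⟩ := exists_n N hNt ω (g • ω)
    obtain ⟨b, rfl⟩ := hιsurj b hb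
    have hk : ∀ k : ℕ, g ^ k • ω = (ι ((∑ i ∈ Finset.range k, A ^ i) b)) • ω := by
      intro k
      induction k with
      | zero => simp [hι0]
      | succ k ih =>
        rw [Finset.sum_range_succ, LinearMap.add_apply, add_comm ((∑ i ∈ Finset.range k, A ^ i) b), hιadd, hApow, pow_succ, mul_smul, ← hbω, ← mul_smul]
        have h1 : g ^ k * ι b = (g ^ k * ι b * (g ^ k)⁻¹) * g ^ k := by group
        rw [h1, mul_smul, ih, ← mul_smul]
        congr 1
        group
    rw [hk, hz]
    simp [hι0]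
  have h1 : p ^ r ∣ p ^ (r - 1) := by
    rw [← hg]; exact orderOf_dvd_of_pow_eq_one hg1
  have h2 := (Nat.pow_dvd_pow_iff_le_right hp.out.one_lt).mp h1
  omega

theorem main (p m : ℕ) [hp : Fact p.Prime] (hcard : Nat.card Ω = p ^ m)
    (N : Subgroup G) [hN : N.Normal] (hNc : IsMulCommutative N) (hNp : ∀ n ∈ N, n ^ p = 1)
    (hNt : IsPretransitive N Ω) (hNr : ∀ ω : Ω, stabilizer N ω = ⊥)
    (g : G) (r : ℕ) (hr : 1 ≤ r) (hg : orderOf g = p ^ r) : p ^ (r - 1) ≤ m := by
  obtain ⟨V, _, _, ⟨e⟩⟩ := exists_model p N hNc hNp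
  exact main' p m hcard N e hNt hNr g r hr hg

theorem bound (p m : ℕ) (hp : p.Prime) (h : p ^ (m - 1) ≤ m) (hm : 1 ≤ m) : m ≤ 2 ∧ (2 < p → m ≤ 1) := by
  have key : ∀ k : ℕ, k + 1 ≤ 2 ^ k := fun k => Nat.lt_two_pow_self
  have key3 : ∀ k : ℕ, 2 * k + 1 ≤ 3 ^ k := by
    intro k
    induction k with
    | zero => simp
    | succ k ih => rw [pow_succ]; omega
  constructor
  · by_contra hcon
    obtain ⟨k, rfl⟩ : ∃ k, m = k + 3 := ⟨m - 3, by omega⟩
    have h1 : 2 ^ (k + 2) ≤ p ^ (k + 2) := Nat.pow_le_pow_left hp.two_le _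
    have h2 := key k
    have h3 : k + 3 - 1 = k + 2 := rfl
    rw [h3] at h
    rw [pow_add] at h1
    omega
  · intro hp2
    by_contra hcon
    obtain ⟨k, rfl⟩ : ∃ k, m = k + 2 := ⟨m - 2, by omega⟩
    have h1 : 3 ^ (k + 1) ≤ p ^ (k + 1) := Nat.pow_le_pow_left hp2 _
    have h2 := key3 k
    have h3 : k + 2 - 1 = k + 1 := rfl
    rw [h3] at h
    rw [pow_succ] at h1
    omega

end Cfsg.Agent.H20.AffOrd
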