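import Cfsg.Agent.H20_GrAut
set_option autoImplicit false

/-! commuting graphs: a commuting-graph isomorphism gives an action on an index set -/
namespace Cfsg.Agent.H20.CG
open GrAut

/-- an action descending to an index set -/
theorem exists_rho {H X : Type*} [Group H] (act : H → X → X) (act_one : ∀ x, act 1 x = x)
    (act_mul : ∀ g h x, act (g * h) x = act g (act h x)) {N : ℕ} (rows : List ℕ) (ix : X → Fin N)
    (surj : Function.Surjective ix) (R : X → X → Prop) (hR : ∀ h x y, R (act h x) (act h y) ↔ R x y)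
    (hadj : ∀ x y, R x y ↔ adj rows (ix x) (ix y) = true)
    (hrows : ∀ i j : Fin N, (∀ k, adj rows i k = adj rows j k) → i = j) :
    ∃ ρ : H →* Equiv.Perm (Fin N), (∀ h x, ρ h (ix x) = ix (act h x)) ∧
      ∀ h i j, adj rows (ρ h i) (ρ h j) = adj rows i j := by
  classical
  choose s hs using surj
  have hback : ∀ h x, act h (act h⁻¹ x) = x := fun h x => by rw [← act_mul, mul_inv_cancel, act_one]
  have key : ∀ h x y, ix x = ix y → ix (act h x) = ix (act h y) := by
    intro h x y hxy
    apply hrows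
    intro k
    rw [← hs k]
    rw [Bool.eq_iff_iff, ← hadj, ← hadj]
    have h1 : s k = act h (act h⁻¹ (s k)) := (hback h _).symm
    rw [h1, hR, hR, hadj, hadj, hxy]
  let toF : H → Fin N → Fin N := fun h i => ix (act h (s i))
  have htoF : ∀ h x, toF h (ix x) = ix (act h x) := by
    intro h x
    exact key h _ _ (hs (ix x))
  have hone : ∀ i, toF 1 i = i := by
    intro i
    change ix (act 1 (s i)) = i
    rw [act_one, hs]
  have hmul : ∀ g h i, toF (g * h) i = toF g (toF h i) := by
    intro g h i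
    change ix (act (g * h) (s i)) = toF g (ix (act h (s i)))
    rw [htoF, act_mul]
  let ρ : H →* Equiv.Perm (Fin N) :=
    { toFun := fun h =>
        { toFun := toF h
          invFun := toF h⁻¹
          left_inv := fun i => by rw [← hmul, inv_mul_cancel, hone]
          right_inv := fun i => by rw [← hmul, mul_inv_cancel, hone] }
      map_one' := by ext1 i; exact hone i
      map_mul' := fun g h => by ext1 i; exact hmul g h i }
  have hρ : ∀ h x, ρ h (ix x) = ix (act h x) := htoF
  refine ⟨ρ, hρ, ?_⟩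
  intro h i j
  rw [← hs i, ← hs j, hρ, hρ, Bool.eq_iff_iff, ← hadj, ← hadj, hR]

variable {H G : Type*} [Group H] [Group G]

theorem exists_total (f : {h : H // h ≠ 1} ≃ {g : G // g ≠ 1})
    (hf : ∀ x y : {h : H // h ≠ 1}, (x : H) * y = y * x ↔ (f x : G) * (f y) = (f y) * (f x)) :
    ∃ F : H ≃ G, F 1 = 1 ∧ ∀ x y, x * y = y * x ↔ F x * F y = F y * F x := by
  classical
  let F : H ≃ G :=
    { toFun := fun x => if h : x = 1 then 1 else f ⟨x, h⟩
      invFun := fun y => if h : y = 1 then 1 else f.symm ⟨y, h⟩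
      left_inv := by
        intro x
        by_cases h : x = 1
        · simp [h]
        · have h1 : (f ⟨x, h⟩ : G) ≠ 1 := (f ⟨x, h⟩).2
          simp [h, h1]
      right_inv := by
        intro x
        by_cases h : x = 1
        · simp [h]
        · have h1 : (f.symm ⟨x, h⟩ : H) ≠ 1 := (f.symm ⟨x, h⟩).2
          simp [h, h1] }
  have hF : ∀ x (h : x ≠ 1), F x = f ⟨x, h⟩ := fun x h => by
    change (if h : x = 1 then (1 : G) else f ⟨x, h⟩) = _
    rw [dif_neg h]
  have hF1 : F 1 = 1 := by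
    change (if h : (1 : H) = 1 then (1 : G) else f ⟨1, h⟩) = _
    rw [dif_pos rfl]
  refine ⟨F, hF1, ?_⟩
  intro x y
  by_cases hx : x = 1
  · rw [hx, hF1]; simp
  by_cases hy : y = 1
  · rw [hy, hF1]; simp
  rw [hF x hx, hF y hy]
  exact hf ⟨x, hx⟩ ⟨y, hy⟩

theorem card_centralizer (F : H ≃ G) (hF : ∀ x y, x * y = y * x ↔ F x * F y = F y * F x) (x : H) :
    Nat.card (Subgroup.centralizer ({x} : Set H)) = Nat.card (Subgroup.centralizer ({F x} : Set G)) := by
  apply Nat.card_congr
  refine F.subtypeEquiv ?_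
  intro y
  have h1 : y ∈ Subgroup.centralizer ({x} : Set H) ↔ x * y = y * x := by
    rw [Subgroup.mem_centralizer_iff]; simp
  have h2 : F y ∈ Subgroup.centralizer ({F x} : Set G) ↔ F x * F y = F y * F x := by
    rw [Subgroup.mem_centralizer_iff]; simp
  rw [h1, h2]
  exact hF x y

theorem card_centralizer_conj (h x : H) :
    Nat.card (Subgroup.centralizer ({h * x * h⁻¹} : Set H)) = Nat.card (Subgroup.centralizer ({x} : Set H)) := by
  symm
  apply Nat.card_congr
  refine (MulAut.conj h).toEquiv.subtypeEquiv ?_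
  intro y
  have h1 : y ∈ Subgroup.centralizer ({x} : Set H) ↔ x * y = y * x := by
    rw [Subgroup.mem_centralizer_iff]; simp
  have h2 : (MulAut.conj h).toEquiv y ∈ Subgroup.centralizer ({h * x * h⁻¹} : Set H) ↔
      (h * x * h⁻¹) * (h * y * h⁻¹) = (h * y * h⁻¹) * (h * x * h⁻¹) := by
    rw [Subgroup.mem_centralizer_iff]; simp
  rw [h1, h2]
  constructor
  · intro h3
    calc h * x * h⁻¹ * (h * y * h⁻¹) = h * (x * y) * h⁻¹ := by group
      _ = h * (y * x) * h⁻¹ := by rw [h3]
      _ = h * y * h⁻¹ * (h * x * h⁻¹) := by group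
  · intro h3
    calc x * y = h⁻¹ * (h * x * h⁻¹ * (h * y * h⁻¹)) * h := by group
      _ = h⁻¹ * (h * y * h⁻¹ * (h * x * h⁻¹)) * h := by rw [h3]
      _ = y * x := by group

/-- model data for the target group -/
structure Model (G : Type*) [Group G] (N : ℕ) (rows : List ℕ) where
  T : Set G
  m : ℕ
  ix : G → Fin N
  one_notMem : (1 : G) ∉ T
  mem_iff : ∀ g, g ≠ 1 → (g ∈ T ↔ m ∣ Nat.card (Subgroup.centralizer ({g} : Set G)))
  surj : ∀ i, ∃ g ∈ T, ix g = i
  adj_iff : ∀ x ∈ T, ∀ y ∈ T, (x * y = y * x ↔ adj rows (ix x) (ix y) = true)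
  rows_inj : ∀ i j : Fin N, (∀ k, adj rows i k = adj rows j k) → i = j

variable {N : ℕ} {rows : List ℕ} (M : Model G N rows)

theorem conj_mem (F : H ≃ G) (hF1 : F 1 = 1) (hF : ∀ x y, x * y = y * x ↔ F x * F y = F y * F x)
    (h x : H) (hx : F x ∈ M.T) : F (h * x * h⁻¹) ∈ M.T := by
  have hx1 : x ≠ 1 := by
    rintro rfl
    rw [hF1] at hx
    exact M.one_notMem hx
  have hFx1 : F x ≠ 1 := fun h' => M.one_notMem (h' ▸ hx)
  have hc1 : h * x * h⁻¹ ≠ 1 := by
    intro h'
    apply hx1
    calc x = h⁻¹ * (h * x * h⁻¹) * h := by group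
      _ = 1 := by rw [h']; group
  have hFc1 : F (h * x * h⁻¹) ≠ 1 := by
    rw [← hF1]; exact fun h' => hc1 (F.injective h')
  rw [M.mem_iff _ hFc1, ← card_centralizer F hF, card_centralizer_conj, card_centralizer F hF, ← M.mem_iff _ hFx1]
  exact hx

theorem exists_hom (F : H ≃ G) (hF1 : F 1 = 1) (hF : ∀ x y, x * y = y * x ↔ F x * F y = F y * F x) :
    ∃ ρ : H →* Equiv.Perm (Fin N), (∀ h x, F x ∈ M.T → ρ h (M.ix (F x)) = M.ix (F (h * x * h⁻¹))) ∧
      ∀ h i j, adj rows (ρ h i) (ρ h j) = adj rows i j := by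
  obtain ⟨ρ, h1, h2⟩ := exists_rho (H := H) (X := {x : H // F x ∈ M.T})
    (fun h x => ⟨h * x * h⁻¹, conj_mem M F hF1 hF h x x.2⟩)
    (fun x => Subtype.ext (by simp)) (fun g h x => Subtype.ext (by simp only; group)) rows
    (fun x => M.ix (F x))
    (by
      intro i
      obtain ⟨g, hg, h⟩ := M.surj i
      refine ⟨⟨F.symm g, by rw [F.apply_symm_apply]; exact hg⟩, ?_⟩
      simp only [F.apply_symm_apply]; exact h)
    (fun x y => (x : H) * y = y * x)
    (by
      intro h x y
      simp only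
      constructor
      · intro h3
        calc (x : H) * y = h⁻¹ * (h * x * h⁻¹ * (h * y * h⁻¹)) * h := by group
          _ = h⁻¹ * (h * y * h⁻¹ * (h * x * h⁻¹)) * h := by rw [h3]
          _ = y * x := by group
      · intro h3
        calc h * x * h⁻¹ * (h * y * h⁻¹) = h * (x * y) * h⁻¹ := by group
          _ = h * (y * x) * h⁻¹ := by rw [h3]
          _ = h * y * h⁻¹ * (h * x * h⁻¹) := by group)
    (by
      intro x y
      rw [hF]
      exact M.adj_iff _ x.2 _ y.2)
    M.rows_inj
  exact ⟨ρ, fun h x hx => h1 h ⟨x, hx⟩, h2⟩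

end Cfsg.Agent.H20.CG
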