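import Cfsg.Agent.H20_CG
set_option autoImplicit false

/-! commuting graphs: final arguments -/
namespace Cfsg.Agent.H20.CG
open GrAut

variable {H G : Type*} [Group H] [Group G] {N : ℕ} {rows : List ℕ}

/-- the group of graph automorphisms -/
def autG (N : ℕ) (rows : List ℕ) : Subgroup (Equiv.Perm (Fin N)) where
  carrier := {σ | ∀ i j, adj rows (σ i) (σ j) = adj rows i j}
  one_mem' := fun _ _ => rfl
  mul_mem' := by
    intro a b ha hb i j
    rw [Equiv.Perm.mul_apply, Equiv.Perm.mul_apply, ha, hb]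
  inv_mem' := by
    intro a ha i j
    have := ha (a⁻¹ i) (a⁻¹ j)
    rw [← this]; simp

theorem mem_autG (σ : Equiv.Perm (Fin N)) :
    σ ∈ autG N rows ↔ ∀ i j, adj rows (σ i) (σ j) = adj rows i j := Iff.rfl

/-- when both actions are faithful and the automorphism group of the graph has order `|G|`. -/
theorem equiv_of_card [Finite H] [Finite G] (F : H ≃ G) (ρ : H →* Equiv.Perm (Fin N))
    (ρ' : G →* Equiv.Perm (Fin N)) (h1 : ∀ h i j, adj rows (ρ h i) (ρ h j) = adj rows i j)
    (h2 : ∀ h i j, adj rows (ρ' h i) (ρ' h j) = adj rows i j) (hρ : Function.Injective ρ)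
    (hρ' : Function.Injective ρ') (hA : Nat.card (autG N rows) ≤ Nat.card G) : Nonempty (H ≃* G) := by
  have hc : Nat.card H = Nat.card G := Nat.card_congr F
  have e1 := MonoidHom.ofInjective hρ
  have e2 := MonoidHom.ofInjective hρ'
  have l1 : ρ.range ≤ autG N rows := by rintro _ ⟨h, rfl⟩; exact h1 h
  have l2 : ρ'.range ≤ autG N rows := by rintro _ ⟨h, rfl⟩; exact h2 h
  have c1 : Nat.card ρ.range = Nat.card H := (Nat.card_congr e1.toEquiv).symm
  have c2 : Nat.card ρ'.range = Nat.card G := (Nat.card_congr e2.toEquiv).symm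
  have k1 : ρ.range = autG N rows := Subgroup.eq_of_le_of_card_ge l1 (by rw [c1, hc]; exact hA)
  have k2 : ρ'.range = autG N rows := Subgroup.eq_of_le_of_card_ge l2 (by rw [c2]; exact hA)
  exact ⟨e1.trans ((MulEquiv.subgroupCongr (k1.trans k2.symm)).trans e2.symm)⟩

/-- when both actions are faithful, `|Aut| ≤ 2|G|`, and `G` is generated by elements of order 3. -/
theorem equiv_of_card_two [Finite H] [Finite G] (F : H ≃ G) (ρ : H →* Equiv.Perm (Fin N))
    (ρ' : G →* Equiv.Perm (Fin N)) (h1 : ∀ h i j, adj rows (ρ h i) (ρ h j) = adj rows i j)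
    (h2 : ∀ h i j, adj rows (ρ' h i) (ρ' h j) = adj rows i j) (hρ : Function.Injective ρ)
    (hρ' : Function.Injective ρ') (hA : Nat.card (autG N rows) ≤ 2 * Nat.card G)
    (T : Set G) (hT : ∀ t ∈ T, t ^ 3 = 1) (hgen : Subgroup.closure T = ⊤) : Nonempty (H ≃* G) := by
  have hc : Nat.card H = Nat.card G := Nat.card_congr F
  have e1 := MonoidHom.ofInjective hρ
  have e2 := MonoidHom.ofInjective hρ'
  have l1 : ρ.range ≤ autG N rows := by rintro _ ⟨h, rfl⟩; exact h1 h
  have l2 : ρ'.range ≤ autG N rows := by rintro _ ⟨h, rfl⟩; exact h2 h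
  have c1 : Nat.card ρ.range = Nat.card H := (Nat.card_congr e1.toEquiv).symm
  have c2 : Nat.card ρ'.range = Nat.card G := (Nat.card_congr e2.toEquiv).symm
  have hG : 0 < Nat.card G := Nat.card_pos
  have hidx : (ρ.range.subgroupOf (autG N rows)).index ≤ 2 := by
    have e3 := (ρ.range.subgroupOf (autG N rows)).card_mul_index
    rw [Nat.card_congr (Subgroup.subgroupOfEquivOfLe l1).toEquiv, c1, hc] at e3
    rw [← e3] at hA
    nlinarith
  have hsq : ∀ a ∈ autG N rows, a ^ 2 ∈ ρ.range := by
    intro a ha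
    have hpos : 0 < (ρ.range.subgroupOf (autG N rows)).index :=
      Nat.pos_of_ne_zero Subgroup.index_ne_zero_of_finite
    have : (⟨a, ha⟩ : autG N rows) ^ 2 ∈ ρ.range.subgroupOf (autG N rows) := by
      rcases (by omega : (ρ.range.subgroupOf (autG N rows)).index = 1 ∨
        (ρ.range.subgroupOf (autG N rows)).index = 2) with h | h
      · rw [Subgroup.index_eq_one.mp h]; trivial
      · exact Subgroup.sq_mem_of_index_two h _
    exact this
  have hle : ρ'.range ≤ ρ.range := by
    rw [MonoidHom.range_eq_map, ← hgen, MonoidHom.map_closure, Subgroup.closure_le]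
    rintro _ ⟨t, ht, rfl⟩
    have h3 := hsq (ρ' t) (l2 ⟨t, rfl⟩)
    have h4 : (ρ' t) ^ 3 = 1 := by rw [← map_pow, hT t ht, map_one]
    have h5 : ρ' t = ((ρ' t) ^ 2)⁻¹ := by
      rw [eq_inv_iff_mul_eq_one, ← pow_succ', h4]
    rw [h5]
    exact inv_mem h3
  have k1 : ρ'.range = ρ.range := Subgroup.eq_of_le_of_card_ge hle (by rw [c1, c2, hc])
  exact ⟨e1.trans ((MulEquiv.subgroupCongr k1.symm).trans e2.symm)⟩

variable (M : Model G N rows)

/-- if an element of `H` commutes with all of `F⁻¹(T)`, it is trivial. -/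
theorem eq_one_of_forall (F : H ≃ G) (hF1 : F 1 = 1) (hF : ∀ x y, x * y = y * x ↔ F x * F y = F y * F x)
    (hcen : ∀ g : G, (∀ t ∈ M.T, g * t = t * g) → g = 1) (k : H)
    (hk : ∀ x, F x ∈ M.T → k * x = x * k) : k = 1 := by
  apply F.injective
  rw [hF1]
  apply hcen
  intro t ht
  have h1 := (hF k (F.symm t)).mp (hk _ (by rw [F.apply_symm_apply]; exact ht))
  rwa [F.apply_symm_apply] at h1

/-- classes are singletons. -/
theorem injective_of_singleton (F : H ≃ G) (hF1 : F 1 = 1)
    (hF : ∀ x y, x * y = y * x ↔ F x * F y = F y * F x)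
    (hcen : ∀ g : G, (∀ t ∈ M.T, g * t = t * g) → g = 1)
    (hix : ∀ x ∈ M.T, ∀ y ∈ M.T, M.ix x = M.ix y → x = y)
    (ρ : H →* Equiv.Perm (Fin N))
    (hρ : ∀ h x, F x ∈ M.T → ρ h (M.ix (F x)) = M.ix (F (h * x * h⁻¹))) : Function.Injective ρ := by
  rw [injective_iff_map_eq_one]
  intro k hk
  refine eq_one_of_forall M F hF1 hF hcen k ?_
  intro x hx
  have h1 := hρ k x hx
  rw [hk, Equiv.Perm.one_apply] at h1
  have h2 := F.injective (hix _ hx _ (conj_mem M F hF1 hF k x hx) h1)
  conv_rhs => rw [h2]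
  group

/-- classes are `{x, x⁻¹}`; `T` is `m = 3^a` central part. -/
theorem injective_of_pair [Finite H] [Finite G] (F : H ≃ G) (hF1 : F 1 = 1)
    (hF : ∀ x y, x * y = y * x ↔ F x * F y = F y * F x)
    (hcen : ∀ g : G, (∀ t ∈ M.T, g * t = t * g) → g = 1)
    (hinv : ∀ x ∈ M.T, x⁻¹ ∈ M.T) (hixinv : ∀ x ∈ M.T, M.ix x⁻¹ = M.ix x)
    (hix : ∀ x ∈ M.T, ∀ y ∈ M.T, M.ix x = M.ix y → y = x ∨ y = x⁻¹)
    (hconst : ∀ x ∈ M.T, ∀ y ∈ M.T, Nat.card (Subgroup.centralizer ({x} : Set G)) =
      Nat.card (Subgroup.centralizer ({y} : Set G)))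
    {a : ℕ} (ha : 0 < a) (hm : M.m = 3 ^ a)
    (ρ : H →* Equiv.Perm (Fin N))
    (hρ : ∀ h x, F x ∈ M.T → ρ h (M.ix (F x)) = M.ix (F (h * x * h⁻¹))) : Function.Injective ρ := by
  classical
  -- star
  let st : H → H := fun x => F.symm (F x)⁻¹
  have hst : ∀ x, F (st x) = (F x)⁻¹ := fun x => F.apply_symm_apply _
  have hstT : ∀ x, F x ∈ M.T → F (st x) ∈ M.T := fun x hx => by rw [hst]; exact hinv _ hx
  have hstc : ∀ x, x * st x = st x * x := fun x => by rw [hF, hst]; group
  have hne : ∀ x, F x ∈ M.T → x ≠ 1 := by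
    rintro x hx rfl
    rw [hF1] at hx; exact M.one_notMem hx
  have hFne : ∀ x, x ≠ 1 → F x ≠ 1 := fun x hx h => hx (F.injective (by rw [h, hF1]))
  -- membership in T_H
  have hmem : ∀ x, x ≠ 1 → (F x ∈ M.T ↔ M.m ∣ Nat.card (Subgroup.centralizer ({x} : Set H))) := by
    intro x hx
    rw [M.mem_iff _ (hFne x hx), card_centralizer F hF]
  -- equal index
  have hpair : ∀ x y, F x ∈ M.T → F y ∈ M.T → M.ix (F x) = M.ix (F y) → y = x ∨ y = st x := by
    intro x y hx hy h
    rcases hix _ hx _ hy h with h1 | h1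
    · exact Or.inl (F.injective h1)
    · right; apply F.injective; rw [hst]; exact h1
  -- domination of centralizers
  have hdom : ∀ x y, F x ∈ M.T → y ≠ 1 → (∀ g, g * x = x * g → g * y = y * g) → y = x ∨ y = st x := by
    intro x y hx hy hle
    have hle' : Subgroup.centralizer ({x} : Set H) ≤ Subgroup.centralizer ({y} : Set H) := by
      intro g hg
      rw [Subgroup.mem_centralizer_iff] at hg ⊢
      intro b hb
      rw [Set.mem_singleton_iff] at hb
      rw [hb]
      exact (hle g (hg x rfl).symm).symm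
    have hyT : F y ∈ M.T := by
      rw [hmem y hy]
      exact ((hmem x (hne x hx)).mp hx).trans (Subgroup.card_dvd_of_le hle')
    have hceq : Nat.card (Subgroup.centralizer ({x} : Set H)) = Nat.card (Subgroup.centralizer ({y} : Set H)) := by
      rw [card_centralizer F hF, card_centralizer F hF]
      exact hconst _ hx _ hyT
    have heq : Subgroup.centralizer ({x} : Set H) = Subgroup.centralizer ({y} : Set H) :=
      Subgroup.eq_of_le_of_card_ge hle' hceq.ge
    apply hpair x y hx hyT
    apply M.rows_inj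
    intro k
    obtain ⟨t, ht, rfl⟩ := M.surj k
    rw [Bool.eq_iff_iff, ← M.adj_iff _ hx _ ht, ← M.adj_iff _ hyT _ ht]
    have hx' := hF x (F.symm t)
    have hy' := hF y (F.symm t)
    rw [F.apply_symm_apply] at hx' hy'
    rw [← hx', ← hy']
    have h3 : F.symm t ∈ Subgroup.centralizer ({x} : Set H) ↔ x * F.symm t = F.symm t * x := by
      rw [Subgroup.mem_centralizer_iff]; simp
    have h4 : F.symm t ∈ Subgroup.centralizer ({y} : Set H) ↔ y * F.symm t = F.symm t * y := by
      rw [Subgroup.mem_centralizer_iff]; simp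
    rw [← h3, ← h4, heq]
  -- orders
  have hord : ∀ x, F x ∈ M.T → x ^ 2 = 1 ∨ x ^ 3 = 1 := by
    intro x hx
    by_contra hcon
    push Not at hcon
    have h2 := hdom x (x ^ 2) hx hcon.1 (fun g hg => (Commute.pow_right hg 2))
    have h3 := hdom x (x ^ 3) hx hcon.2 (fun g hg => (Commute.pow_right hg 3))
    have h2' : x ^ 2 ≠ x := fun h => hne x hx (by
      have : x * x = x * 1 := by rw [← pow_two, h, mul_one]
      exact mul_left_cancel this)
    have h3' : x ^ 3 ≠ x ^ 2 := fun h => hne x hx (by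
      have : x ^ 2 * x = x ^ 2 * 1 := by rw [← pow_succ, h, mul_one]
      exact mul_left_cancel this)
    have h3'' : x ^ 3 ≠ x := fun h => hcon.1 (by
      have : x * x ^ 2 = x * 1 := by rw [← pow_succ', h, mul_one]
      exact mul_left_cancel this)
    rcases h2 with h2 | h2
    · exact h2' h2
    rcases h3 with h3 | h3
    · exact h3'' h3
    · exact h3' (h3.trans h2.symm)
  have hthree : ∀ x, F x ∈ M.T → x ^ 3 = 1 := by
    intro x hx
    rcases hord x hx with h2 | h3
    · exfalso
      have hd := (hmem x (hne x hx)).mp hx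
      -- a 3-subgroup of order 3^a in C(x)
      rw [hm] at hd
      have : Fact (Nat.Prime 3) := ⟨Nat.prime_three⟩
      obtain ⟨Q, hQ⟩ := Sylow.exists_subgroup_card_pow_prime 3 hd
      have hQp : IsPGroup 3 Q := IsPGroup.of_card hQ
      have hQn : Nontrivial Q := by
        rw [← Finite.one_lt_card_iff_nontrivial, hQ]
        exact Nat.one_lt_pow ha.ne' (by norm_num)
      have hZ := hQp.center_nontrivial
      have hZp : IsPGroup 3 (Subgroup.center Q) := hQp.to_subgroup _
      obtain ⟨z, hz⟩ := exists_prime_orderOf_dvd_card' (G := Subgroup.center Q) 3 (by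
        obtain ⟨n, hn, hc⟩ := (hZp.nontrivial_iff_card).mp hZ
        rw [hc]; exact dvd_pow_self 3 hn.ne')
      -- as element of H
      let z1 : Subgroup.centralizer ({x} : Set H) := ((z : Q) : Subgroup.centralizer ({x} : Set H))
      let z0 : H := (z1 : H)
      have hz0x : x * z0 = z0 * x := by
        have := (Subgroup.mem_centralizer_iff.mp z1.2) x rfl
        exact this
      have hz03 : z0 ^ 3 = 1 := by
        have h5 : z ^ 3 = 1 := by rw [← hz]; exact pow_orderOf_eq_one z
        have h6 := congrArg (fun w : Subgroup.center Q => (((w : Q) : Subgroup.centralizer ({x} : Set H)) : H)) h5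
        exact h6
      have hz01 : z0 ≠ 1 := by
        intro h
        have : z = 1 := Subtype.ext (Subtype.ext (Subtype.ext h))
        rw [this, orderOf_one] at hz
        norm_num at hz
      have hx1 := hne x hx
      have hxz1 : x * z0 ≠ 1 := by
        intro h
        have e1 : z0 = x⁻¹ := (inv_eq_of_mul_eq_one_right h).symm
        have e2 : z0 ^ 2 = 1 := by rw [e1, inv_pow, h2, inv_one]
        apply hz01
        calc z0 = z0 ^ 3 * (z0 ^ 2)⁻¹ := by group
          _ = 1 := by rw [hz03, e2]; simp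
      -- centralizer of x z0 contains the image of Q
      have hQle : (Q.map (Subgroup.centralizer ({x} : Set H)).subtype) ≤
          Subgroup.centralizer ({x * z0} : Set H) := by
        rintro _ ⟨q, hq, rfl⟩
        rw [Subgroup.mem_centralizer_iff]
        intro b hb
        rw [Set.mem_singleton_iff] at hb
        rw [hb]
        have e1 : x * (q : H) = q * x := (Subgroup.mem_centralizer_iff.mp q.2) x rfl
        have e2 : z0 * (q : H) = q * z0 := by
          have := (Subgroup.mem_center_iff.mp z.2) ⟨q, hq⟩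
          have h6 := congrArg (fun w : Q => ((w : Subgroup.centralizer ({x} : Set H)) : H)) this
          exact h6.symm
        change x * z0 * (q : H) = q * (x * z0)
        rw [mul_assoc, e2, ← mul_assoc, e1, mul_assoc]
      have hcardQ : Nat.card (Q.map (Subgroup.centralizer ({x} : Set H)).subtype) = 3 ^ a := by
        rw [← hQ]
        exact (Nat.card_congr (Q.equivMapOfInjective _ (Subgroup.subtype_injective _)).toEquiv).symm
      have hT' : F (x * z0) ∈ M.T := by
        rw [hmem _ hxz1, hm, ← hcardQ]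
        exact Subgroup.card_dvd_of_le hQle
      have hcm : Commute x z0 := hz0x
      rcases hord _ hT' with h5 | h5
      · rw [hcm.mul_pow, h2, one_mul] at h5
        apply hz01
        calc z0 = z0 ^ 3 * (z0 ^ 2)⁻¹ := by group
          _ = 1 := by rw [hz03, h5]; simp
      · rw [hcm.mul_pow, hz03, mul_one] at h5
        apply hx1
        calc x = x ^ 3 * (x ^ 2)⁻¹ := by group
          _ = 1 := by rw [h5, h2]; simp
    · exact h3
  -- kernel
  rw [injective_iff_map_eq_one]
  have hker : ∀ k, ρ k = 1 → ∀ x, F x ∈ M.T → k * x * k⁻¹ = x ∨ k * x * k⁻¹ = st x := by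
    intro k hk x hx
    have h1 := hρ k x hx
    rw [hk, Equiv.Perm.one_apply] at h1
    exact hpair x _ hx (conj_mem M F hF1 hF k x hx) h1
  have hsq : ∀ k, ρ k = 1 → k ^ 2 = 1 := by
    intro k hk
    refine eq_one_of_forall M F hF1 hF hcen _ ?_
    intro x hx
    have h1 : k * (k * x * k⁻¹) * k⁻¹ = x := by
      rcases hker k hk x hx with h | h
      · rw [h, h]
      · rcases hker k hk (st x) (hstT x hx) with h' | h'
        · -- k st x k⁻¹ = st x , k x k⁻¹ = st x -> x = st x
          have : x = st x := by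
            have e1 : k * x * k⁻¹ = k * st x * k⁻¹ := by rw [h, h']
            exact mul_left_cancel (mul_right_cancel e1)
          rw [h, h', ← this]
        · rw [h, h']
          apply F.injective
          rw [hst, hst, inv_inv]
    calc k ^ 2 * x = (k * (k * x * k⁻¹) * k⁻¹) * k ^ 2 := by simp only [pow_two]; group
      _ = x * k ^ 2 := by rw [h1]
  intro k hk
  refine eq_one_of_forall M F hF1 hF hcen k ?_
  intro x hx
  have hcK : ρ (k * x * k⁻¹ * x⁻¹) = 1 := by
    rw [map_mul, map_mul, map_mul, hk, map_inv, map_inv, hk]; simp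
  have hc2 := hsq _ hcK
  have hcomm : Commute (k * x * k⁻¹) x⁻¹ := by
    apply Commute.inv_right
    rcases hker k hk x hx with h | h
    · rw [h]
    · rw [h]; exact (hstc x).symm
  have hc3 : (k * x * k⁻¹ * x⁻¹) ^ 3 = 1 := by
    rw [hcomm.mul_pow, inv_pow, hthree x hx]
    have : (k * x * k⁻¹) ^ 3 = k * x ^ 3 * k⁻¹ := conj_pow
    rw [this, hthree x hx]; simp
  have hc1 : k * x * k⁻¹ * x⁻¹ = 1 := by
    calc k * x * k⁻¹ * x⁻¹ = (k * x * k⁻¹ * x⁻¹) ^ 3 * ((k * x * k⁻¹ * x⁻¹) ^ 2)⁻¹ := by
          rw [← zpow_natCast, ← zpow_natCast, ← zpow_neg, ← zpow_add]; norm_num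
      _ = 1 := by rw [hc3, hc2]; simp
  calc k * x = (k * x * k⁻¹ * x⁻¹) * (x * k) := by group
    _ = x * k := by rw [hc1, one_mul]

end Cfsg.Agent.H20.CG
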