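import Mathlib
set_option autoImplicit false

/-! Carmichael's presentation of the alternating groups: the upper bound on the order -/
namespace Cfsg.Agent.H20.Carm

theorem closure_cover {G : Type*} [Group G] (H : Subgroup G) (S : Set G) (r : ℕ → G) (n : ℕ) (hn : 0 < n)
    (h0 : r 0 = 1) (hcl : ∀ s < n, ∀ a ∈ S, ∃ t < n, r s * a * (r t)⁻¹ ∈ H)
    (hinv : ∀ a ∈ S, ∃ k : ℕ, a⁻¹ = a ^ k) (g : G) (hg : g ∈ Subgroup.closure S) :
    ∃ t < n, g * (r t)⁻¹ ∈ H := by
  have key : ∀ g, (∃ t < n, g * (r t)⁻¹ ∈ H) → ∀ a ∈ S, ∃ t < n, (g * a) * (r t)⁻¹ ∈ H := by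
    rintro g ⟨s, hs, hg⟩ a ha
    obtain ⟨t, ht, h⟩ := hcl s hs a ha
    refine ⟨t, ht, ?_⟩
    have : g * a * (r t)⁻¹ = (g * (r s)⁻¹) * (r s * a * (r t)⁻¹) := by group
    rw [this]; exact mul_mem hg h
  have key2 : ∀ k : ℕ, ∀ g, (∃ t < n, g * (r t)⁻¹ ∈ H) → ∀ a ∈ S, ∃ t < n, (g * a ^ k) * (r t)⁻¹ ∈ H := by
    intro k
    induction k with
    | zero => intro g hg a _; simpa using hg
    | succ k ih =>
      intro g hg a ha
      rw [pow_succ, ← mul_assoc]
      exact key _ (ih g hg a ha) a ha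
  induction hg using Subgroup.closure_induction_right with
  | one => exact ⟨0, hn, by rw [h0]; simp [one_mem]⟩
  | mul_right x _ y hy ih => exact key x ih y hy
  | mul_inv_cancel x _ y hy ih =>
    obtain ⟨k, hk⟩ := hinv y hy
    rw [hk]; exact key2 k x ih y hy

theorem card_le_of_cover {G : Type*} [Group G] (H K : Subgroup G) [Finite H] (r : ℕ → G) (n : ℕ)
    (h : ∀ g ∈ K, ∃ t < n, g * (r t)⁻¹ ∈ H) : Finite K ∧ Nat.card K ≤ n * Nat.card H := by
  choose! f hf1 hf2 using h
  let φ : K → Fin n × H := fun x => (⟨f x, hf1 x x.2⟩, ⟨x * (r (f x))⁻¹, hf2 x x.2⟩)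
  have hφ : Function.Injective φ := by
    intro x y hxy
    have h1 := congrArg (fun z => ((z.2 : H) : G)) hxy
    have h2 := congrArg (fun z => (z.1 : ℕ)) hxy
    simp only [φ] at h1 h2
    rw [h2] at h1
    exact Subtype.ext (mul_right_cancel h1)
  refine ⟨Finite.of_injective φ hφ, ?_⟩
  have h1 := Nat.card_le_card_of_injective φ hφ
  rwa [Nat.card_prod, Nat.card_eq_fintype_card (α := Fin n), Fintype.card_fin] at h1

section
variable {G : Type*} [Group G] (x : ℕ → G) (M : ℕ)

def K (m : ℕ) : Subgroup G := Subgroup.closure (x '' {i | i < m})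

/-- `u t = x_m x_{m-1} ⋯ x_{m-t+1}` -/
def u (m : ℕ) : ℕ → G
  | 0 => 1
  | t + 1 => u m t * x (m - t)

variable (h0 : x 0 ^ 3 = 1) (h2 : ∀ i, 1 ≤ i → i < M → x i ^ 2 = 1)
  (h3 : ∀ i, i + 1 < M → (x i * x (i + 1)) ^ 3 = 1) (h4 : ∀ i j, i + 1 < j → j < M → (x i * x j) ^ 2 = 1)

include h2 in
theorem inv_eq {i : ℕ} (h : 1 ≤ i) (hi : i < M) : (x i)⁻¹ = x i := by
  rw [inv_eq_iff_mul_eq_one, ← pow_two]; exact h2 i h hi

include h2 h4 in
theorem comm {i k : ℕ} (hi : 1 ≤ i) (hk : i + 1 < k) (hM : k < M) : x k * x i = x i * x k := by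
  have h := h4 i k hk hM
  rw [pow_two] at h
  have e1 := inv_eq x M h2 hi (by omega)
  have e2 := inv_eq x M h2 (i := k) (by omega) hM
  have h5 : x i * x k = (x i * x k)⁻¹ := by rw [eq_inv_iff_mul_eq_one]; exact h
  rw [mul_inv_rev, e1, e2] at h5
  exact h5.symm

include h2 h3 in
theorem braid {i : ℕ} (hi : 1 ≤ i) (hM : i + 1 < M) : x (i + 1) * x i * x (i + 1) = x i * x (i + 1) * x i := by
  have h := h3 i hM
  have e1 := inv_eq x M h2 hi (by omega)
  have e2 := inv_eq x M h2 (i := i + 1) (by omega) hM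
  have h5 : x i * x (i + 1) * x i = (x (i + 1) * x i * x (i + 1))⁻¹ := by
    rw [eq_inv_iff_mul_eq_one]
    have : x i * x (i + 1) * x i * (x (i + 1) * x i * x (i + 1)) = (x i * x (i + 1)) ^ 3 := by
      simp only [pow_succ, pow_zero, one_mul, mul_assoc]
    rw [this, h]
  rw [h5, mul_inv_rev, mul_inv_rev, e1, e2, mul_assoc]

include h2 h4 in
theorem comm0 {k : ℕ} (hk : 1 < k) (hM : k < M) : x k * x 0 = (x 0)⁻¹ * x k := by
  have h := h4 0 k (by omega) hM
  rw [pow_two] at h
  have e2 := inv_eq x M h2 (i := k) (by omega) hM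
  have h5 : x 0 * x k = (x 0 * x k)⁻¹ := by rw [eq_inv_iff_mul_eq_one]; exact h
  rw [mul_inv_rev, e2] at h5
  calc x k * x 0 = (x 0)⁻¹ * (x 0 * x k) * x 0 := by group
    _ = (x 0)⁻¹ * (x k * (x 0)⁻¹) * x 0 := by rw [h5]
    _ = _ := by group

include h2 h4 in
theorem comm0' {k : ℕ} (hk : 1 < k) (hM : k < M) : x k * (x 0)⁻¹ = x 0 * x k := by
  have h := comm0 x M h2 h4 hk hM
  calc x k * (x 0)⁻¹ = x 0 * ((x 0)⁻¹ * x k) * (x 0)⁻¹ := by group
    _ = x 0 * (x k * x 0) * (x 0)⁻¹ := by rw [h]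
    _ = _ := by group

include h2 h4 in
/-- letters far below the last letter commute -/
theorem u_comm {m : ℕ} (hm : m < M) (t : ℕ) {i : ℕ} (hi : 1 ≤ i) (hit : i + t < m + 1) (hit' : t = 0 ∨ i + t < m) :
    u x m t * x i = x i * u x m t := by
  induction t with
  | zero => simp [u]
  | succ t ih =>
    rw [u, mul_assoc, comm x M h2 h4 hi (k := m - t) (by omega) (by omega), ← mul_assoc, ih (by omega) (by omega),
      mul_assoc]

include h2 h4 in
theorem u_comm0 {m : ℕ} (hm : m < M) (t : ℕ) (hit : t < m) :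
    (u x m t * x 0 = x 0 * u x m t ∨ u x m t * x 0 = (x 0)⁻¹ * u x m t) ∧
    (u x m t * (x 0)⁻¹ = x 0 * u x m t ∨ u x m t * (x 0)⁻¹ = (x 0)⁻¹ * u x m t) := by
  induction t with
  | zero => simp [u]
  | succ t ih =>
    obtain ⟨ih1, ih2⟩ := ih (by omega)
    constructor
    · rw [u, mul_assoc, comm0 x M h2 h4 (k := m - t) (by omega) (by omega), ← mul_assoc]
      rcases ih2 with h | h
      · left; rw [h, mul_assoc]
      · right; rw [h, mul_assoc]
    · rw [u, mul_assoc, comm0' x M h2 h4 (k := m - t) (by omega) (by omega), ← mul_assoc]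
      rcases ih1 with h | h
      · left; rw [h, mul_assoc]
      · right; rw [h, mul_assoc]

include h2 h3 h4 in
/-- `u t * x i = x (i-1) * u t` for `i` above the last letter -/
theorem u_braid {m : ℕ} (hm : m < M) (t : ℕ) {i : ℕ} (ht : t ≤ m) (hi : m + 1 < i + t) (him : i ≤ m) :
    u x m t * x i = x (i - 1) * u x m t := by
  induction t with
  | zero => omega
  | succ t ih =>
    by_cases h : i = m - t + 1
    · -- adjacent
      obtain ⟨s, rfl⟩ : ∃ s, t = s + 1 := ⟨t - 1, by omega⟩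
      have e1 : m - s = m - (s + 1) + 1 := by omega
      rw [u, u, h, e1]
      have hb := braid x M h2 h3 (i := m - (s + 1)) (by omega) (by omega)
      calc u x m s * x (m - (s + 1) + 1) * x (m - (s + 1)) * x (m - (s + 1) + 1)
          = u x m s * (x (m - (s + 1) + 1) * x (m - (s + 1)) * x (m - (s + 1) + 1)) := by group
        _ = u x m s * x (m - (s + 1)) * x (m - (s + 1) + 1) * x (m - (s + 1)) := by rw [hb]; group
        _ = _ := by
          rw [u_comm x M h2 h4 hm s (i := m - (s + 1)) (by omega) (by omega) (by omega)]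
          simp only [Nat.add_sub_cancel, mul_assoc]
    · rw [u, mul_assoc, ← comm x M h2 h4 (i := m - t) (k := i) (by omega) (by omega) (by omega), ← mul_assoc,
        ih (by omega) (by omega), mul_assoc]

/-- coset representatives -/
def r (m t : ℕ) : G := if t ≤ m then u x m t else if t = m + 1 then u x m m * x 0 else u x m m * (x 0)⁻¹

theorem mem_K {m i : ℕ} (h : i < m) : x i ∈ K x m := Subgroup.subset_closure ⟨i, h, rfl⟩

include h0 in
theorem sq0 : x 0 * x 0 = (x 0)⁻¹ := by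
  rw [eq_inv_iff_mul_eq_one]
  rw [← h0]; simp only [pow_succ, pow_zero, one_mul]

include h0 h2 h3 in
theorem rel01 (hM : 1 < M) : x 1 * x 0 * x 1 = (x 0)⁻¹ * x 1 * (x 0)⁻¹ := by
  have h := h3 0 hM
  have e1 := inv_eq x M h2 (i := 1) le_rfl hM
  have h5 : x 0 * (x 1 * x 0 * x 1) * x 0 * x 1 = 1 := by
    rw [← h]; simp only [pow_succ, pow_zero, one_mul, mul_assoc, Nat.zero_add]
  have h6 : x 1 * x 0 * x 1 = (x 0)⁻¹ * (x 1)⁻¹ * (x 0)⁻¹ := by
    calc x 1 * x 0 * x 1 = (x 0)⁻¹ * (x 0 * (x 1 * x 0 * x 1) * x 0 * x 1) * (x 1)⁻¹ * (x 0)⁻¹ := by group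
      _ = _ := by rw [h5]; group
  rw [h6, e1]

include h0 h2 h3 h4 in
theorem step_closed {m : ℕ} (hm : m < M) (s : ℕ) (hs : s < m + 3) (i : ℕ) (hi : i < m + 1) :
    ∃ t < m + 3, ∃ h ∈ K x m, r x m s * x i = h * r x m t := by
  have hr : ∀ t, t ≤ m → r x m t = u x m t := fun t ht => by rw [r, if_pos ht]
  have hr1 : r x m (m + 1) = u x m m * x 0 := by rw [r, if_neg (by omega), if_pos rfl]
  have hr2 : r x m (m + 2) = u x m m * (x 0)⁻¹ := by rw [r, if_neg (by omega), if_neg (by omega)]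
  rcases (by omega : s ≤ m ∨ s = m + 1 ∨ s = m + 2) with hs' | rfl | rfl
  · rw [hr s hs']
    rcases Nat.lt_or_ge 0 i with hi0 | hi0
    · -- i ≥ 1 ; last letter m - s + 1
      rcases (by omega : i + s < m ∨ i + s = m ∨ i + s = m + 1 ∨ m + 1 < i + s) with h | h | h | h
      · exact ⟨s, hs, x i, mem_K x (by omega), by rw [hr s hs', u_comm x M h2 h4 hm s hi0 (by omega) (by omega)]⟩
      · refine ⟨s + 1, by omega, 1, one_mem _, ?_⟩
        rw [hr _ (by omega), one_mul, u]
        congr 2; omega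
      · -- i is the last letter
        by_cases hs0 : s = 0
        · subst hs0
          omega
        · obtain ⟨t, rfl⟩ : ∃ t, s = t + 1 := ⟨s - 1, by omega⟩
          refine ⟨t, by omega, 1, one_mem _, ?_⟩
          rw [hr _ (by omega), one_mul, u, mul_assoc]
          have e : m - t = i := by omega
          rw [e, ← pow_two, h2 i hi0 (by omega), mul_one]
      · exact ⟨s, hs, x (i - 1), mem_K x (by omega), by rw [hr s hs', u_braid x M h2 h3 h4 hm s hs' h (by omega)]⟩
    · have hi' : i = 0 := by omega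
      subst hi'
      rcases Nat.lt_or_ge s m with h | h
      · rcases (u_comm0 x M h2 h4 hm s h).1 with h' | h'
        · exact ⟨s, hs, x 0, mem_K x (by omega), by rw [hr s hs', h']⟩
        · exact ⟨s, hs, (x 0)⁻¹, inv_mem (mem_K x (by omega)), by rw [hr s hs', h']⟩
      · have : s = m := by omega
        subst this
        exact ⟨s + 1, by omega, 1, one_mem _, by rw [hr1, one_mul]⟩
  · rw [hr1]
    rcases Nat.lt_or_ge 1 i with hi0 | hi0
    · -- x0 x_i = x_i x0⁻¹
      have hc := comm0' x M h2 h4 (k := i) hi0 (by omega)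
      refine ⟨m + 2, by omega, x (i - 1), mem_K x (by omega), ?_⟩
      rw [hr2, mul_assoc, ← hc, ← mul_assoc, u_braid x M h2 h3 h4 hm m le_rfl (by omega) (by omega), mul_assoc]
    · rcases (by omega : i = 0 ∨ i = 1) with rfl | rfl
      · refine ⟨m + 2, by omega, 1, one_mem _, ?_⟩
        rw [hr2, mul_assoc, sq0 x h0, one_mul]
      · obtain ⟨t, rfl⟩ : ∃ t, m = t + 1 := ⟨m - 1, by omega⟩
        have e : t + 1 - t = 1 := by omega
        have key : u x (t + 1) (t + 1) * x 0 * x 1 = u x (t + 1) t * (x 0)⁻¹ * (x 1 * (x 0)⁻¹) := by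
          rw [u, e]
          calc u x (t + 1) t * x 1 * x 0 * x 1 = u x (t + 1) t * (x 1 * x 0 * x 1) := by group
            _ = _ := by rw [rel01 x M h0 h2 h3 (by omega)]; group
        have e2 : u x (t + 1) (t + 1) = u x (t + 1) t * x 1 := by rw [u, e]
        rcases (u_comm0 x M h2 h4 hm t (by omega)).2 with h' | h'
        · refine ⟨t + 1 + 2, by omega, x 0, mem_K x (by omega), ?_⟩
          rw [key, h', hr2, e2]; group
        · refine ⟨t + 1 + 2, by omega, (x 0)⁻¹, inv_mem (mem_K x (by omega)), ?_⟩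
          rw [key, h', hr2, e2]; group
  · rw [hr2]
    rcases Nat.lt_or_ge 1 i with hi0 | hi0
    · have hc := comm0 x M h2 h4 (k := i) hi0 (by omega)
      refine ⟨m + 1, by omega, x (i - 1), mem_K x (by omega), ?_⟩
      rw [hr1, mul_assoc, ← hc, ← mul_assoc, u_braid x M h2 h3 h4 hm m le_rfl (by omega) (by omega), mul_assoc]
    · rcases (by omega : i = 0 ∨ i = 1) with rfl | rfl
      · refine ⟨m, by omega, 1, one_mem _, ?_⟩
        rw [hr m le_rfl, mul_assoc, inv_mul_cancel, mul_one, one_mul]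
      · obtain ⟨t, rfl⟩ : ∃ t, m = t + 1 := ⟨m - 1, by omega⟩
        have e : t + 1 - t = 1 := by omega
        have e1 := inv_eq x M h2 (i := 1) le_rfl (by omega)
        have h5 : x 1 * (x 0)⁻¹ * x 1 = x 0 * x 1 * x 0 := by
          have := congrArg (·⁻¹) (rel01 x M h0 h2 h3 (by omega))
          simp only [mul_inv_rev, e1, inv_inv] at this
          rw [mul_assoc, this, mul_assoc]
        have key : u x (t + 1) (t + 1) * (x 0)⁻¹ * x 1 = u x (t + 1) t * x 0 * (x 1 * x 0) := by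
          rw [u, e]
          calc u x (t + 1) t * x 1 * (x 0)⁻¹ * x 1 = u x (t + 1) t * (x 1 * (x 0)⁻¹ * x 1) := by group
            _ = _ := by rw [h5]; group
        have e2 : u x (t + 1) (t + 1) = u x (t + 1) t * x 1 := by rw [u, e]
        rcases (u_comm0 x M h2 h4 hm t (by omega)).1 with h' | h'
        · refine ⟨t + 1 + 1, by omega, x 0, mem_K x (by omega), ?_⟩
          rw [key, h', hr1, e2]; group
        · refine ⟨t + 1 + 1, by omega, (x 0)⁻¹, inv_mem (mem_K x (by omega)), ?_⟩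
          rw [key, h', hr1, e2]; group

include h0 h2 h3 h4 in
theorem bound (m : ℕ) (hm : m ≤ M) : Finite (K x m) ∧ 2 * Nat.card (K x m) ≤ (m + 2).factorial := by
  induction m with
  | zero =>
    have : K x 0 = ⊥ := by
      rw [K]; simp
    rw [this]
    exact ⟨inferInstance, by simp⟩
  | succ m ih =>
    obtain ⟨hf, hc⟩ := ih (by omega)
    have h := card_le_of_cover (K x m) (K x (m + 1)) (r x m) (m + 3) (by
      intro g hg
      refine closure_cover (K x m) _ (r x m) (m + 3) (by omega) ?_ ?_ ?_ g hg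
      · rw [r, if_pos (by omega), u]
      · rintro s hs _ ⟨i, hi, rfl⟩
        obtain ⟨t, ht, h, hh, e⟩ := step_closed x M h0 h2 h3 h4 (m := m) (by omega) s hs i hi
        refine ⟨t, ht, ?_⟩
        rw [e, mul_assoc, mul_inv_cancel, mul_one]; exact hh
      · rintro _ ⟨i, hi, rfl⟩
        have hi' : i < m + 1 := hi
        rcases Nat.eq_zero_or_pos i with rfl | h
        · exact ⟨2, by rw [pow_two, sq0 x h0]⟩
        · exact ⟨1, by rw [pow_one, inv_eq x M h2 h (by omega)]⟩)
    refine ⟨h.1, ?_⟩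
    have : (m + 1 + 2).factorial = (m + 3) * (m + 2).factorial := rfl
    rw [this]
    calc 2 * Nat.card (K x (m + 1)) ≤ 2 * ((m + 3) * Nat.card (K x m)) := by have := h.2; omega
      _ = (m + 3) * (2 * Nat.card (K x m)) := by ring
      _ ≤ _ := Nat.mul_le_mul_left _ hc

end

end Cfsg.Agent.H20.Carm
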