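import Cfsg.Agent.H20_Carm
import Cfsg.Agent.H20_TCP
set_option autoImplicit false

/-! Carmichael's presentation of the alternating groups -/
namespace Cfsg.Agent.H20.Carm
open Equiv

section
variable (n : ℕ)

/-- adjacent transpositions -/
def a (j : ℕ) : Perm (Fin n) := if h : j + 1 < n then swap ⟨j, by omega⟩ ⟨j + 1, h⟩ else 1

theorem a_eq {j : ℕ} (h : j + 1 < n) : a n j = swap ⟨j, by omega⟩ ⟨j + 1, h⟩ := by rw [a, dif_pos h]

theorem a_sq (j : ℕ) : a n j * a n j = 1 := by
  unfold a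
  split
  · exact swap_mul_self _ _
  · simp

theorem a_inv (j : ℕ) : (a n j)⁻¹ = a n j := inv_eq_of_mul_eq_one_right (a_sq n j)

theorem a_comm {i j : ℕ} (h : i + 1 < j) : a n i * a n j = a n j * a n i := by
  unfold a
  split
  · split
    · rename_i h1 h2
      apply Perm.Disjoint.commute
      apply Perm.disjoint_swap_swap
      simp only [List.nodup_cons, List.mem_cons, List.not_mem_nil, or_false, not_or, Fin.mk.injEq,
        not_false_eq_true, List.nodup_nil, and_true]
      omega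
    · simp
  · simp

theorem a_braid {j : ℕ} (h : j + 2 < n) : a n j * a n (j + 1) * a n j = a n (j + 1) * a n j * a n (j + 1) := by
  rw [a_eq n (by omega : j + 1 < n), a_eq n (by omega : j + 1 + 1 < n)]
  have h1 : (⟨j, by omega⟩ : Fin n) ≠ ⟨j + 1, by omega⟩ := by simp
  have h2 : (⟨j, by omega⟩ : Fin n) ≠ ⟨j + 1 + 1, h⟩ := by simp; omega
  have h3 : (⟨j + 1, by omega⟩ : Fin n) ≠ ⟨j + 1 + 1, h⟩ := by simp
  rw [swap_mul_swap_mul_swap h1 h2]
  rw [swap_comm (⟨j, by omega⟩ : Fin n) ⟨j + 1, by omega⟩, swap_comm (⟨j + 1, by omega⟩ : Fin n) ⟨j + 1 + 1, h⟩,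
    swap_mul_swap_mul_swap h3.symm h2.symm, swap_comm]

theorem sign_a {j : ℕ} (h : j + 1 < n) : Perm.sign (a n j) = -1 := by
  rw [a_eq n h, Perm.sign_swap]
  simp

/-- the generators -/
def y (i : ℕ) : Perm (Fin n) := a n 0 * a n (i + 1)

theorem y_zero (hn : 3 ≤ n) : y n 0 ^ 3 = 1 := by
  have hb := a_braid n (j := 0) (by omega)
  simp only [Nat.zero_add] at hb
  have : y n 0 ^ 3 = (a n 0 * a n 1 * a n 0) * (a n 1 * a n 0 * a n 1) := by
    simp only [y, pow_succ, pow_zero, one_mul, mul_assoc, Nat.zero_add]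
  rw [this, ← hb]
  have h1 : a n 0 * a n 1 * a n 0 * (a n 0 * a n 1 * a n 0) = a n 0 * (a n 1 * (a n 0 * a n 0) * a n 1) * a n 0 := by
    group
  rw [h1, a_sq, mul_one, a_sq, mul_one, a_sq]

theorem y_sq {i : ℕ} (hi : 1 ≤ i) : y n i ^ 2 = 1 := by
  have hc := a_comm n (i := 0) (j := i + 1) (by omega)
  rw [pow_two, y]
  calc a n 0 * a n (i + 1) * (a n 0 * a n (i + 1)) = a n 0 * (a n (i + 1) * a n 0) * a n (i + 1) := by group
    _ = (a n 0 * a n 0) * (a n (i + 1) * a n (i + 1)) := by rw [← hc]; group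
    _ = 1 := by rw [a_sq, a_sq, one_mul]

theorem y_braid {i : ℕ} (hi : i + 3 < n) : (y n i * y n (i + 1)) ^ 3 = 1 := by
  -- `y i * y (i+1) = (s a_{i+1} s) * a_{i+2}`
  set s := a n 0 with hs
  have hb := a_braid n (j := i + 1) (by omega)
  have hc2 := a_comm n (i := 0) (j := i + 2) (by omega)
  have hb1 : a n (i + 1 + 1) = a n (i + 2) := rfl
  rw [hb1] at hb
  have hss : s * s = 1 := a_sq n 0
  set p := a n (i + 1) with hp
  set q := a n (i + 2) with hq
  have hpp : p * p = 1 := a_sq n _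
  have hqq : q * q = 1 := a_sq n _
  have hy1 : y n i = s * p := rfl
  have hy2 : y n (i + 1) = s * q := rfl
  rw [hy1, hy2]
  -- (s p s q)^3, with s q = q s ; s p s q s p s q s p s q = s (p q p q p q) s ... since s q s = q
  have h1 : s * p * (s * q) = s * (p * q) * s := by
    calc s * p * (s * q) = s * p * (q * s) := by rw [hc2]
      _ = _ := by group
  rw [h1]
  have h2 : (s * (p * q) * s) ^ 3 = s * (p * q) ^ 3 * s := by
    have hsi : s = s⁻¹ := (inv_eq_of_mul_eq_one_right hss).symm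
    conv_lhs => rw [show s * (p * q) * s = s * (p * q) * s⁻¹ by rw [← hsi]]
    rw [conj_pow, ← hsi]
  have h3 : (p * q) ^ 3 = 1 := by
    have : (p * q) ^ 3 = (p * q * p) * (q * p * q) := by
      simp only [pow_succ, pow_zero, one_mul, mul_assoc]
    rw [this, ← hb]
    calc p * q * p * (p * q * p) = p * (q * (p * p) * q) * p := by group
      _ = 1 := by rw [hpp, mul_one, hqq, mul_one, hpp]
  rw [h2, h3, mul_one, hss]

theorem y_far {i j : ℕ} (hij : i + 1 < j) : (y n i * y n j) ^ 2 = 1 := by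
  set s := a n 0 with hs
  have hcj := a_comm n (i := 0) (j := j + 1) (by omega)
  have hci := a_comm n (i := i + 1) (j := j + 1) (by omega)
  have hss : s * s = 1 := a_sq n 0
  set p := a n (i + 1) with hp
  set q := a n (j + 1) with hq
  have hpp : p * p = 1 := a_sq n _
  have hqq : q * q = 1 := a_sq n _
  have hy1 : y n i = s * p := rfl
  have hy2 : y n j = s * q := rfl
  rw [hy1, hy2]
  have h1 : s * p * (s * q) = s * (p * q) * s := by
    calc s * p * (s * q) = s * p * (q * s) := by rw [hcj]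
      _ = _ := by group
  have hpq : (p * q) * (p * q) = 1 := by
    calc (p * q) * (p * q) = (p * q) * (q * p) := by rw [hci]
      _ = p * (q * q) * p := by group
      _ = 1 := by rw [hqq, mul_one, hpp]
  rw [h1, pow_two]
  calc s * (p * q) * s * (s * (p * q) * s) = s * ((p * q) * (s * s) * (p * q)) * s := by group
    _ = 1 := by rw [hss, mul_one, hpq, mul_one, hss]

theorem y_mem {i : ℕ} (hi : i + 2 < n) : y n i ∈ alternatingGroup (Fin n) := by
  rw [Perm.mem_alternatingGroup, y, map_mul, sign_a n (by omega), sign_a n (by omega)]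
  rfl

theorem cover (hn : 3 ≤ n) (K : Subgroup (Perm (Fin n))) (hK : ∀ i, i + 2 < n → y n i ∈ K) (g : Perm (Fin n)) :
    g ∈ K ∨ g * a n 0 ∈ K := by
  obtain ⟨m, rfl⟩ : ∃ m, n = m + 1 := ⟨n - 1, by omega⟩
  have hg : g ∈ Submonoid.closure (Set.range fun i : Fin m ↦ swap i.castSucc i.succ) := by
    rw [Perm.mclosure_swap_castSucc_succ]; trivial
  have hgen : ∀ j, j < m → a (m + 1) j * a (m + 1) 0 ∈ K := by
    intro j hj
    rcases Nat.eq_zero_or_pos j with rfl | h
    · rw [a_sq]; exact one_mem _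
    · obtain ⟨i, rfl⟩ : ∃ i, j = i + 1 := ⟨j - 1, by omega⟩
      have h1 : a (m + 1) (i + 1) * a (m + 1) 0 = (y (m + 1) i)⁻¹ := by
        rw [y, mul_inv_rev, a_inv, a_inv]
      rw [h1]; exact inv_mem (hK i (by omega))
  induction hg using Submonoid.closure_induction_right with
  | one => exact Or.inl (one_mem _)
  | mul_right x _ z hz ih =>
    obtain ⟨j, rfl⟩ := hz
    have e : swap j.castSucc j.succ = a (m + 1) j := by
      rw [a_eq (m + 1) (by omega)]; rfl
    simp only [e]
    have h1 := hgen j j.2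
    rcases ih with h | h
    · right
      rw [mul_assoc]; exact mul_mem h h1
    · left
      have h2 : x * a (m + 1) j = (x * a (m + 1) 0) * (a (m + 1) j * a (m + 1) 0)⁻¹ := by
        rw [mul_inv_rev, a_inv, a_inv]
        calc x * a (m + 1) j = x * (a (m + 1) 0 * a (m + 1) 0) * a (m + 1) j := by rw [a_sq, mul_one]
          _ = _ := by group
      rw [h2]; exact mul_mem h (inv_mem h1)

end

end Cfsg.Agent.H20.Carm
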