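import Mathlib
import Cfsg.Agent.H20_EP
import Cfsg.Agent.H20_SelfNorm

set_option autoImplicit false

namespace Cfsg.Agent.H20.EPX

open MulAction Cfsg.Agent.H20.Prim Cfsg.Agent.H20.EP Cfsg.Agent.H20.MinNormal
open scoped Pointwise

variable {G : Type*} [Group G] {Ω : Type*} [MulAction G Ω]

theorem stab_max (H : Subgroup G) (ω : Ω) (hp : IsPreprimitive H (orbit H ω)) (hmove : ∃ h ∈ H, h • ω ≠ ω)
    (K : Subgroup G) (h1 : H ⊓ stabilizer G ω ≤ K) (h2 : K ≤ H) : K = H ⊓ stabilizer G ω ∨ K = H := by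
  let ω' : orbit H ω := ⟨ω, mem_orbit_self ω⟩
  obtain ⟨h, hh, hne⟩ := hmove
  have hnt : Nontrivial (orbit H ω) := ⟨ω', ⟨h • ω, ⟨⟨h, hh⟩, rfl⟩⟩, fun e => hne (congrArg Subtype.val e).symm⟩
  have hco := (isCoatom_stabilizer_iff_preprimitive H ω').2 hp
  have hmem : ∀ x : H, x ∈ stabilizer H ω' ↔ (x : G) • ω = ω := by
    intro x
    constructor
    · intro hx
      exact congrArg (fun z : orbit H ω => (z : Ω)) hx
    · intro hx
      exact Subtype.ext hx
  have hle : stabilizer H ω' ≤ K.subgroupOf H := by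
    intro x hx
    rw [Subgroup.mem_subgroupOf]
    exact h1 ⟨x.2, (hmem x).1 hx⟩
  rcases hle.eq_or_lt with h | h
  · left
    apply le_antisymm ?_ h1
    intro x hx
    refine ⟨h2 hx, ?_⟩
    have : (⟨x, h2 hx⟩ : H) ∈ K.subgroupOf H := hx
    rw [← h] at this
    exact (hmem _).1 this
  · right
    have := hco.2 _ h
    rw [Subgroup.subgroupOf_eq_top] at this
    exact le_antisymm h2 this

theorem caseX [Finite G] [Finite Ω] [FaithfulSMul G Ω] (α : Ω)
    (hep : ∀ ω : Ω, IsPreprimitive (stabilizer G α) (orbit (stabilizer G α) ω))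
    (T T₂ : Subgroup G) (hs : IsSimpleGroup T) (hna : ∃ a ∈ T, ∃ b ∈ T, a * b ≠ b * a)
    (hcomm : ∀ s ∈ T₂, ∀ t ∈ T, s * t = t * s)
    (hreg : ∀ t ∈ T, ∀ ω : Ω, t • ω = ω → t = 1) (htr₂ : ∀ x y : Ω, ∃ t ∈ T₂, t • x = y)
    (hnorm : ∀ h ∈ stabilizer G α, ∀ t ∈ T, h * t * h⁻¹ ∈ T ∨ h * t * h⁻¹ ∈ T₂)
    (hnorm2 : ∀ h ∈ stabilizer G α, ∀ x ∈ T ⊔ T₂, h * x * h⁻¹ ∈ T ⊔ T₂) : False := by
  classical
  set H := stabilizer G α with hH
  have hna' : ∃ a b : T, a * b ≠ b * a := by
    obtain ⟨a, ha, b, hb, hab⟩ := hna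
    exact ⟨⟨a, ha⟩, ⟨b, hb⟩, fun e => hab (congrArg Subtype.val e)⟩
  have hcen := SelfNorm.center_bot hs hna'
  -- uniqueness
  have huniq : ∀ s ∈ T, ∀ t ∈ T, s • α = t • α → s = t := by
    intro s hs t ht e
    have h1 : (s⁻¹ * t) • α = α := by rw [mul_smul, ← e, inv_smul_smul]
    exact eq_of_inv_mul_eq_one (hreg _ (T.mul_mem (T.inv_mem hs) ht) α h1)
  -- key computation
  have hsm : ∀ h ∈ H, ∀ t : G, h • (t • α) = (h * t * h⁻¹) • α := by
    intro h hh t
    have h1 : h⁻¹ • α = α := by rw [inv_smul_eq_iff]; exact hh.symm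
    rw [mul_smul, mul_smul, h1]
  -- the diagonal elements
  have hdiag : ∀ x ∈ T, ∃ y ∈ T₂, x * y ∈ H := by
    intro x hx
    obtain ⟨y, hy, e⟩ := htr₂ α (x⁻¹ • α)
    refine ⟨y, hy, ?_⟩
    rw [hH, mem_stabilizer_iff, mul_smul, e, smul_inv_smul]
  have hsup : ∀ m ∈ T ⊔ T₂, ∃ c ∈ T, ∃ y ∈ T₂, m = c * y := by
    intro m hm
    have hle : T₂ ≤ Subgroup.normalizer (T : Set G) := by
      intro s hs
      rw [Subgroup.mem_normalizer_iff]
      intro x
      constructor
      · intro hx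
        rw [hcomm s hs x hx]
        simpa using hx
      · intro hx
        have h1 := hcomm s hs _ hx
        have h2 : x = s * x * s⁻¹ := by
          calc x = s⁻¹ * ((s * x * s⁻¹) * s) := by group
            _ = s⁻¹ * (s * (s * x * s⁻¹)) := by rw [h1]
            _ = s * x * s⁻¹ := by group
        rw [h2]; exact hx
    rw [← SetLike.mem_coe, Subgroup.coe_mul_of_right_le_normalizer_left _ _ hle] at hm
    obtain ⟨t, ht, c, hc, e⟩ := Set.mem_mul.1 hm
    exact ⟨t, ht, c, hc, e.symm⟩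
  -- membership of a diagonal element in a two-point stabilizer
  have hmemS : ∀ x ∈ T, ∀ y ∈ T₂, x * y ∈ H → ∀ t ∈ T, (x * y) • (t • α) = t • α ↔ x * t = t * x := by
    intro x hx y hy hxy t ht
    rw [hsm _ hxy]
    have e : x * y * t * (x * y)⁻¹ = x * t * x⁻¹ := by
      have h1 := hcomm y hy t ht
      calc x * y * t * (x * y)⁻¹ = x * (y * t) * y⁻¹ * x⁻¹ := by group
        _ = x * (t * y) * y⁻¹ * x⁻¹ := by rw [h1]
        _ = x * t * x⁻¹ := by group
    rw [e]
    constructor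
    · intro h
      have h2 := huniq _ (T.mul_mem (T.mul_mem hx ht) (T.inv_mem hx)) _ ht h
      calc x * t = (x * t * x⁻¹) * x := by group
        _ = t * x := by rw [h2]
    · intro h
      rw [h]
      simp
  -- some diagonal element moves tα
  have hmove : ∀ t ∈ T, t ≠ 1 → ∃ h ∈ H, h • (t • α) ≠ t • α := by
    intro t ht ht1
    obtain ⟨x, hx⟩ : ∃ x : T, x * ⟨t, ht⟩ ≠ ⟨t, ht⟩ * x := by
      by_contra hcon
      push Not at hcon
      have : (⟨t, ht⟩ : T) ∈ Subgroup.center T := Subgroup.mem_center_iff.2 hcon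
      rw [hcen, Subgroup.mem_bot] at this
      exact ht1 (congrArg Subtype.val this)
    obtain ⟨y, hy, hxy⟩ := hdiag x x.2
    refine ⟨_, hxy, fun h => hx (Subtype.ext ?_)⟩
    exact (hmemS x x.2 y hy hxy t ht).1 h
  -- (A)
  have hpow : ∀ t ∈ T, ∀ h ∈ H, h • (t • α) = t • α → ∀ k : ℕ, h • (t ^ k • α) = t ^ k • α := by
    intro t ht h hh hfix k
    rw [hsm h hh] at hfix ⊢
    have hc : (h * t * h⁻¹) * t = t * (h * t * h⁻¹) := by
      rcases hnorm h hh t ht with h1 | h1
      · rw [huniq _ h1 _ ht hfix]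
      · exact hcomm _ h1 t ht
    have key : ∀ k : ℕ, (h * t * h⁻¹) ^ k • α = t ^ k • α := by
      intro k
      induction k with
      | zero => rw [pow_zero, pow_zero]
      | succ k ih =>
        rw [pow_succ', mul_smul, ih, ← mul_smul, pow_succ, ((show Commute (h * t * h⁻¹) t from hc).pow_right k).eq, mul_smul, hfix, ← mul_smul]
    rw [← conj_pow, key]
  have hA0 : ∀ t ∈ T, ∀ k : ℕ, t ^ k ≠ 1 → H ⊓ stabilizer G (t ^ k • α) = H ⊓ stabilizer G (t • α) := by
    intro t ht k hk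
    have ht1 : t ≠ 1 := by
      rintro rfl
      exact hk (one_pow k)
    have h1 : H ⊓ stabilizer G (t • α) ≤ H ⊓ stabilizer G (t ^ k • α) := by
      rintro h ⟨hh, hh2⟩
      exact ⟨hh, hpow t ht h hh hh2 k⟩
    rcases stab_max H (t • α) (hep _) (hmove t ht ht1) _ h1 inf_le_left with h2 | h2
    · exact h2
    · exfalso
      obtain ⟨g, hg, hg2⟩ := hmove (t ^ k) (T.pow_mem ht k) hk
      have : g ∈ H ⊓ stabilizer G (t ^ k • α) := by rw [h2]; exact hg
      exact hg2 this.2
  have hA : ∀ (t : T) (k : ℕ), t ^ k ≠ 1 → Subgroup.centralizer ({t ^ k} : Set T) = Subgroup.centralizer ({t} : Set T) := by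
    intro t k hk
    have hk' : (t : G) ^ k ≠ 1 := fun h => hk (Subtype.ext (by rw [Subgroup.coe_pow]; exact h))
    have h1 := hA0 t t.2 k hk'
    ext x
    rw [Subgroup.mem_centralizer_singleton_iff, Subgroup.mem_centralizer_singleton_iff]
    obtain ⟨y, hy, hxy⟩ := hdiag x x.2
    have h2 := hmemS x x.2 y hy hxy t t.2
    have h3 := hmemS x x.2 y hy hxy ((t : G) ^ k) (T.pow_mem t.2 k)
    have h4 : (x : G) * y ∈ H ⊓ stabilizer G (((t : G) ^ k) • α) ↔ (x : G) * y ∈ H ⊓ stabilizer G ((t : G) • α) := by rw [h1]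
    have h5 : (x * t ^ k = t ^ k * x) ↔ ((x : G) * (t : G) ^ k = (t : G) ^ k * x) := by
      rw [Subtype.ext_iff]; simp
    have h6 : (x * t = t * x) ↔ ((x : G) * (t : G) = (t : G) * x) := by
      rw [Subtype.ext_iff]; simp
    rw [h5, h6, ← h2, ← h3]
    constructor
    · intro h
      exact (h4.1 ⟨hxy, h⟩).2
    · intro h
      exact (h4.2 ⟨hxy, h⟩).2
  -- (B)
  have hB : ∀ t : T, t ≠ 1 → Subgroup.normalizer ((Subgroup.centralizer ({t} : Set T) : Subgroup T) : Set T) = Subgroup.centralizer ({t} : Set T) := by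
    intro t ht
    have ht' : (t : G) ≠ 1 := fun h => ht (Subtype.ext h)
    apply le_antisymm ?_ Subgroup.le_normalizer
    intro x hx
    set D := (T ⊔ T₂) ⊓ (H ⊓ stabilizer G ((t : G) • α)) with hD
    -- elements of D
    have hDmem : ∀ c ∈ T, ∀ y ∈ T₂, c * y ∈ H → (c * y ∈ D ↔ c * t = t * c) := by
      intro c hc y hy hcy
      rw [← hmemS c hc y hy hcy t t.2]
      constructor
      · intro h
        exact h.2.2
      · intro h
        exact ⟨Subgroup.mul_mem _ (Subgroup.mem_sup_left hc) (Subgroup.mem_sup_right hy), hcy, h⟩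
    set N := H ⊓ Subgroup.normalizer (D : Set G) with hN
    have hnormalizer : ∀ g ∈ H, (∀ d ∈ D, g * d * g⁻¹ ∈ D) → g ∈ Subgroup.normalizer (D : Set G) := by
      intro g hg h
      have hle : cj g D ≤ D := by
        intro z hz
        rw [mem_cj] at hz
        have := h _ hz
        have e : g * (g⁻¹ * z * g) * g⁻¹ = z := by group
        rwa [e] at this
      have heq := cj_eq_of_le hle
      rw [Subgroup.mem_normalizer_iff]
      intro z
      constructor
      · exact h z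
      · intro hz
        have : g * z * g⁻¹ ∈ cj g D := by rw [heq]; exact hz
        rwa [conj_mem_cj_iff] at this
    have h1 : H ⊓ stabilizer G ((t : G) • α) ≤ N := by
      intro g hg
      refine ⟨hg.1, hnormalizer g hg.1 ?_⟩
      rintro d ⟨hd1, hd2⟩
      exact ⟨hnorm2 g hg.1 d hd1, Subgroup.mul_mem _ (Subgroup.mul_mem _ hg hd2) (Subgroup.inv_mem _ hg)⟩
    obtain ⟨y, hy, hxy⟩ := hdiag x x.2
    -- general conjugation formula
    have hconjD : ∀ x ∈ T, ∀ y ∈ T₂, ∀ c ∈ T, ∀ z ∈ T₂, (x * y) * (c * z) * (x * y)⁻¹ = (x * c * x⁻¹) * (y * z * y⁻¹) := by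
      intro x hx y hy c hc z hz
      have e1 := hcomm y hy c hc
      have e2 := hcomm (y * z * y⁻¹) (T₂.mul_mem (T₂.mul_mem hy hz) (T₂.inv_mem hy)) x⁻¹ (T.inv_mem hx)
      calc (x * y) * (c * z) * (x * y)⁻¹ = x * (y * c) * z * y⁻¹ * x⁻¹ := by group
        _ = x * (c * y) * z * y⁻¹ * x⁻¹ := by rw [e1]
        _ = x * c * ((y * z * y⁻¹) * x⁻¹) := by group
        _ = x * c * (x⁻¹ * (y * z * y⁻¹)) := by rw [e2]
        _ = _ := by group
    have h2 : (x : G) * y ∈ N := by
      refine ⟨hxy, hnormalizer _ hxy ?_⟩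
      intro d hd
      obtain ⟨c, hc, z, hz, rfl⟩ := hsup d hd.1
      have h3 := (hDmem c hc z hz hd.2.1).1 hd
      have hHd : (x : G) * y * (c * z) * ((x : G) * y)⁻¹ ∈ H := H.mul_mem (H.mul_mem hxy hd.2.1) (H.inv_mem hxy)
      rw [hconjD x x.2 y hy c hc z hz] at hHd ⊢
      rw [hDmem _ (T.mul_mem (T.mul_mem x.2 hc) (T.inv_mem x.2)) _ (T₂.mul_mem (T₂.mul_mem hy hz) (T₂.inv_mem hy)) hHd]
      have h4 : (⟨c, hc⟩ : T) ∈ Subgroup.centralizer ({t} : Set T) := by
        rw [Subgroup.mem_centralizer_singleton_iff]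
        exact Subtype.ext h3
      have h5 := (Subgroup.mem_normalizer_iff.1 hx ⟨c, hc⟩).1 h4
      have h6 : x * ⟨c, hc⟩ * x⁻¹ * t = t * (x * ⟨c, hc⟩ * x⁻¹) := Subgroup.mem_centralizer_singleton_iff.1 h5
      exact congrArg Subtype.val h6
    rcases stab_max H ((t : G) • α) (hep _) (hmove t t.2 ht') N h1 inf_le_left with h3 | h3
    · rw [h3] at h2
      rw [Subgroup.mem_centralizer_singleton_iff]
      exact Subtype.ext ((hmemS x x.2 y hy hxy t t.2).1 h2.2)
    · exfalso
      have hCn : (Subgroup.centralizer ({t} : Set T)).Normal := by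
        constructor
        intro c hc g
        rw [Subgroup.mem_centralizer_singleton_iff] at hc
        obtain ⟨z, hz, hcz⟩ := hdiag c c.2
        obtain ⟨w, hw, hgw⟩ := hdiag g g.2
        have h4 : (c : G) * z ∈ D := (hDmem c c.2 z hz hcz).2 (congrArg Subtype.val hc)
        have h5 : (g : G) * w ∈ N := h3 ▸ hgw
        have h6 := (Subgroup.mem_normalizer_iff.1 h5.2 _).1 h4
        have h7 : ((g : G) * w) * ((c : G) * z) * ((g : G) * w)⁻¹ ∈ D := h6
        rw [hconjD g g.2 w hw c c.2 z hz] at h7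
        have h8 := (hDmem _ (T.mul_mem (T.mul_mem g.2 c.2) (T.inv_mem g.2)) _ (T₂.mul_mem (T₂.mul_mem hw hz) (T₂.inv_mem hw)) h7.2.1).1 h7
        rw [Subgroup.mem_centralizer_singleton_iff]
        exact Subtype.ext h8
      rcases hs.eq_bot_or_eq_top_of_normal _ hCn with h4 | h4
      · have : t ∈ Subgroup.centralizer ({t} : Set T) := Subgroup.mem_centralizer_singleton_iff.2 rfl
        rw [h4, Subgroup.mem_bot] at this
        exact ht this
      · have : t ∈ Subgroup.center T := by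
          rw [Subgroup.mem_center_iff]
          intro g
          have hg : g ∈ Subgroup.centralizer ({t} : Set T) := h4 ▸ Subgroup.mem_top g
          exact Subgroup.mem_centralizer_singleton_iff.1 hg
        rw [hcen, Subgroup.mem_bot] at this
        exact ht this
  exact SelfNorm.no_group hs hna' hA hB

theorem isSimple_factor {M T : Subgroup G} (h : Factor M T) : IsSimpleGroup T := by
  have hnt : Nontrivial T := (Subgroup.nontrivial_iff_ne_bot T).2 h.ne_bot
  refine { exists_pair_ne := hnt.exists_pair_ne, eq_bot_or_eq_top_of_normal := ?_ }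
  intro K hK
  by_cases hK1 : K = ⊥
  · exact Or.inl hK1
  · right
    have h1 : K.map T.subtype = T := by
      apply h.simple _ (Subgroup.map_subtype_le _)
      · intro hh
        exact hK1 ((Subgroup.map_eq_bot_iff_of_injective _ T.subtype_injective).1 hh)
      · rintro t ht _ ⟨k, hk, rfl⟩
        exact ⟨⟨t, ht⟩ * k * ⟨t, ht⟩⁻¹, hK.conj_mem k hk _, rfl⟩
    rw [eq_top_iff]
    intro x _
    have : (x : G) ∈ K.map T.subtype := by rw [h1]; exact x.2
    obtain ⟨y, hy, hy2⟩ := this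
    have : y = x := Subtype.ext hy2
    exact this ▸ hy

/-- two commuting regular factors (holomorph type): `T` simple normal with nontrivial centralizer -/
theorem case2 [Finite G] [Finite Ω] [FaithfulSMul G Ω] (hprim : IsPreprimitive G Ω) (α : Ω)
    (hep : ∀ ω : Ω, IsPreprimitive (stabilizer G α) (orbit (stabilizer G α) ω))
    (T : Subgroup G) [hT : T.Normal] (hF : Factor T T) (hC : Subgroup.centralizer (T : Set G) ≠ ⊥) : False := by
  have hCn : (Subgroup.centralizer (T : Set G)).Normal := Subgroup.normal_centralizer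
  have htr := normal_transitive hprim T hT hF.ne_bot
  have htr2 := normal_transitive hprim _ hCn hC
  refine caseX α hep T (Subgroup.centralizer (T : Set G)) (isSimple_factor hF) hF.nonab ?_ ?_ htr2 ?_ ?_
  · intro s hs t ht
    exact Factor.comm hs ht
  · intro t ht ω hω
    exact eq_one_of_centralizes _ htr2 t (fun c hc => (Factor.comm hc ht).symm) ω hω
  · intro h _ t ht
    exact Or.inl (hT.conj_mem t ht h)
  · intro h _ x hx
    have : (T ⊔ Subgroup.centralizer (T : Set G)).Normal := Subgroup.sup_normal _ _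
    exact this.conj_mem x hx h

end Cfsg.Agent.H20.EPX
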