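import Mathlib
import Cfsg.Agent.H20_EP
import Cfsg.Agent.H20_EP2
import Cfsg.Agent.H20_EPX

set_option autoImplicit false

namespace Cfsg.Agent.H20.EPX

open MulAction Cfsg.Agent.H20.Prim Cfsg.Agent.H20.EP Cfsg.Agent.H20.MinNormal
open scoped Pointwise

variable {G : Type*} [Group G] {Ω : Type*} [MulAction G Ω]

theorem mem_norm [Finite G] {T : Subgroup G} {h : G} : h ∈ Subgroup.normalizer (T : Set G) ↔ cj h T = T := by
  constructor
  · intro hh
    apply cj_eq_of_le
    intro x hx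
    rw [mem_cj] at hx
    have := (Subgroup.mem_normalizer_iff.1 hh _).1 hx
    have e : h * (h⁻¹ * x * h) * h⁻¹ = x := by group
    rwa [e] at this
  · intro hh
    rw [Subgroup.mem_normalizer_iff]
    intro x
    rw [← conj_mem_cj_iff (g := h) (H := T), hh]

theorem cj_M [Finite G] {M T : Subgroup G} (hF : Factor M T) {m : G} (hm : m ∈ M) : cj m T = T := by
  apply cj_eq_of_le
  intro x hx
  rw [mem_cj] at hx
  have := hF.norm m hm _ hx
  have e : m * (m⁻¹ * x * m) * m⁻¹ = x := by group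
  rwa [e] at this

theorem exists_H [Finite G] {M T : Subgroup G} (hF : Factor M T) (htr : ∀ x y : Ω, ∃ n ∈ M, n • x = y) (α : Ω) (g : G) :
    ∃ h ∈ stabilizer G α, cj g T = cj h T := by
  obtain ⟨m, hm, e⟩ := htr α (g⁻¹ • α)
  refine ⟨g * m, ?_, ?_⟩
  · rw [mem_stabilizer_iff, mul_smul, e, smul_inv_smul]
  · rw [cj_mul, cj_M hF hm]

theorem exists_move [Finite G] {M T : Subgroup G} (hF : Factor M T) (hne : T ≠ M) (htr : ∀ x y : Ω, ∃ n ∈ M, n • x = y) (α : Ω) :
    ∃ h ∈ stabilizer G α, cj h T ≠ T := by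
  by_contra hcon
  push Not at hcon
  apply hne
  rw [← hF.gen]
  apply le_antisymm
  · have : cj 1 T ≤ ⨆ g : G, cj g T := le_iSup (fun g => cj g T) 1
    rwa [cj_one] at this
  · apply iSup_le
    intro g
    obtain ⟨h, hh, e⟩ := exists_H hF htr α g
    rw [e, hcon h hh]

theorem centralize_all [Finite G] {M T : Subgroup G} (hF : Factor M T) (htr : ∀ x y : Ω, ∃ n ∈ M, n • x = y) (α : Ω)
    (X : Subgroup G) (hX : ∀ x ∈ X, ∀ t ∈ T, x * t = t * x) (hn : ∀ h ∈ stabilizer G α, ∀ x ∈ X, h⁻¹ * x * h ∈ X) :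
    ∀ x ∈ X, ∀ m ∈ M, x * m = m * x := by
  intro x hx m hm
  have hle : M ≤ Subgroup.centralizer ({x} : Set G) := by
    rw [← hF.gen]
    apply iSup_le
    intro g
    obtain ⟨h, hh, e⟩ := exists_H hF htr α g
    rw [e]
    intro z hz
    rw [mem_cj] at hz
    rw [Subgroup.mem_centralizer_singleton_iff]
    have h1 := hX _ (hn h hh x hx) _ hz
    calc z * x = h * ((h⁻¹ * z * h) * (h⁻¹ * x * h)) * h⁻¹ := by group
      _ = h * ((h⁻¹ * x * h) * (h⁻¹ * z * h)) * h⁻¹ := by rw [h1]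
      _ = x * z := by group
  exact (Subgroup.mem_centralizer_singleton_iff.1 (hle hm)).symm

theorem bot_of_centralize [Finite G] [FaithfulSMul G Ω] {M T : Subgroup G} (hF : Factor M T) (htr : ∀ x y : Ω, ∃ n ∈ M, n • x = y) (α : Ω)
    (X : Subgroup G) (hXH : X ≤ stabilizer G α) (hX : ∀ x ∈ X, ∀ t ∈ T, x * t = t * x)
    (hn : ∀ h ∈ stabilizer G α, ∀ x ∈ X, h⁻¹ * x * h ∈ X) : X = ⊥ := by
  rw [Subgroup.eq_bot_iff_forall]
  intro x hx
  exact eq_one_of_centralizes M htr x (centralize_all hF htr α X hX hn x hx) α (hXH hx)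

theorem smul_eq (α : Ω) (h : G) (hh : h ∈ stabilizer G α) (t : G) : h • (t • α) = (h * t * h⁻¹) • α := by
  have h1 : h⁻¹ • α = α := by rw [inv_smul_eq_iff]; exact hh.symm
  rw [mul_smul, mul_smul, h1]

theorem mem_of_fix (α : Ω) (h : G) (hh : h ∈ stabilizer G α) (t : G) (hf : h • (t • α) = t • α) :
    t⁻¹ * (h * t * h⁻¹) ∈ stabilizer G α := by
  rw [smul_eq α h hh] at hf
  rw [mem_stabilizer_iff, mul_smul, hf, inv_smul_smul]

theorem case1a [Finite G] [Finite Ω] [FaithfulSMul G Ω] (hprim : IsPreprimitive G Ω) (α : Ω)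
    (hep : ∀ ω : Ω, IsPreprimitive (stabilizer G α) (orbit (stabilizer G α) ω))
    (M T : Subgroup G) [hM : M.Normal] (hMne : M ≠ ⊥) (hF : Factor M T) (hne : T ≠ M)
    (hR : ∃ t ∈ T, ∀ c ∈ M ⊓ Subgroup.centralizer (T : Set G), t * c ∉ stabilizer G α) : False := by
  classical
  have htr := normal_transitive hprim M hM hMne
  obtain ⟨h0, hh0, hh0T⟩ := exists_move hF hne htr α
  set H := stabilizer G α with hH
  set B := H ⊓ Subgroup.normalizer (T : Set G) with hBdef
  have hBH : B ≠ H := by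
    intro h
    apply hh0T
    rw [← h] at hh0
    exact mem_norm.1 hh0.2
  -- key claim
  have hA : ∀ t ∈ T, (∀ c ∈ M ⊓ Subgroup.centralizer (T : Set G), t * c ∉ H) → H ⊓ stabilizer G (t • α) = B := by
    intro t ht hnr
    have h1 : H ⊓ stabilizer G (t • α) ≤ B := by
      rintro h ⟨hh, hf⟩
      refine ⟨hh, mem_norm.2 ?_⟩
      rcases hF.dich h with h2 | h2
      · exact h2
      · exfalso
        have hc1 : h * t * h⁻¹ ∈ cj h T := conj_mem_cj ht
        have hc2 : h * t * h⁻¹ ∈ M := hM.conj_mem t (hF.le ht) h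
        have hc3 : h * t * h⁻¹ ∈ Subgroup.centralizer (T : Set G) := by
          rw [Subgroup.mem_centralizer_iff]
          intro y hy
          exact (h2.2 _ hc1 y hy).symm
        have h3 := mem_of_fix α h hh t hf
        apply hnr (h * t * h⁻¹)⁻¹ ((M ⊓ Subgroup.centralizer (T : Set G)).inv_mem ⟨hc2, hc3⟩)
        have h4 := H.inv_mem h3
        have h5 := h2.2 _ hc1 t ht
        have h6 : (t⁻¹ * (h * t * h⁻¹))⁻¹ = t * (h * t * h⁻¹)⁻¹ := by
          rw [mul_inv_rev, inv_inv]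
          calc (h * t * h⁻¹)⁻¹ * t = (h * t * h⁻¹)⁻¹ * (t * (h * t * h⁻¹)) * (h * t * h⁻¹)⁻¹ := by group
            _ = (h * t * h⁻¹)⁻¹ * ((h * t * h⁻¹) * t) * (h * t * h⁻¹)⁻¹ := by rw [h5]
            _ = t * (h * t * h⁻¹)⁻¹ := by group
        rwa [h6] at h4
    have hmove : ∃ h ∈ H, h • (t • α) ≠ t • α := by
      by_contra hcon
      push Not at hcon
      exact hh0T (mem_norm.1 (h1 ⟨hh0, hcon h0 hh0⟩).2)
    rcases stab_max H (t • α) (hep _) hmove B h1 inf_le_left with h2 | h2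
    · exact h2.symm
    · exact absurd h2 hBH
  -- M ⊓ H = ⊥
  have hMnT : M ≤ Subgroup.normalizer (T : Set G) := fun m hm => mem_norm.2 (cj_M hF hm)
  obtain ⟨t, ht, hnr⟩ := hR
  have htH : t ∉ H := by
    have := hnr 1 (Subgroup.one_mem _)
    rwa [mul_one] at this
  have hMH : M ⊓ H = ⊥ := by
    by_contra hne'
    have h1 : M ⊓ H ≤ stabilizer G (t • α) := by
      intro m hm
      have : m ∈ B := ⟨hm.2, hMnT hm.1⟩
      rw [← hA t ht hnr] at this
      exact this.2
    have h2 : t⁻¹ ∈ Subgroup.normalizer ((M ⊓ H : Subgroup G) : Set G) := by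
      rw [mem_norm]
      apply cj_eq_of_le
      intro x hx
      rw [mem_cj, inv_inv] at hx
      have h3 := h1 hx
      refine ⟨?_, ?_⟩
      · have := hM.conj_mem _ hx.1 t⁻¹
        have e : t⁻¹ * (t * x * t⁻¹) * t⁻¹⁻¹ = x := by group
        rwa [e] at this
      · rw [mem_stabilizer_iff] at h3
        show x • α = α
        have e : (t * x * t⁻¹) • t • α = t • (x • α) := by
          rw [← mul_smul, ← mul_smul]; congr 1; group
        rw [e] at h3
        exact smul_left_cancel t h3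
    have h3 : H ≤ Subgroup.normalizer ((M ⊓ H : Subgroup G) : Set G) := by
      intro h hh
      rw [mem_norm]
      apply cj_eq_of_le
      intro x hx
      rw [mem_cj] at hx
      have e : h * (h⁻¹ * x * h) * h⁻¹ = x := by group
      refine ⟨?_, ?_⟩
      · have := hM.conj_mem _ hx.1 h
        rwa [e] at this
      · have := H.mul_mem (H.mul_mem hh hx.2) (H.inv_mem hh)
        rwa [e] at this
    have hntΩ : Nontrivial Ω := ⟨t • α, α, htH⟩
    rcases eq_of_stab_le hprim hntΩ α _ h3 with h4 | h4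
    · apply htH
      rw [h4] at h2
      have := H.inv_mem h2
      rwa [inv_inv] at this
    · have h5 : (M ⊓ H).Normal := Subgroup.normalizer_eq_top_iff.1 h4
      obtain ⟨n, hn, e⟩ := normal_transitive hprim _ h5 hne' α (t • α)
      have h6 : n • α = α := hn.2
      apply htH
      rw [hH, mem_stabilizer_iff, ← e, h6]
  have hMreg : ∀ m ∈ M, m • α = α → m = 1 := by
    intro m hm h
    have : m ∈ M ⊓ H := ⟨hm, h⟩
    rw [hMH] at this
    exact this
  have hMeq : ∀ m ∈ M, ∀ m' ∈ M, m • α = m' • α → m = m' := by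
    intro m hm m' hm' h
    exact eq_of_inv_mul_eq_one (hMreg _ (M.mul_mem (M.inv_mem hm) hm') (by rw [mul_smul, ← h, inv_smul_smul]))
  have hNR : ∀ u ∈ T, u ≠ 1 → ∀ c ∈ M ⊓ Subgroup.centralizer (T : Set G), u * c ∉ H := by
    intro u hu hu1 c hc h
    have h1 := hMreg (u * c) (M.mul_mem (hF.le hu) hc.1) h
    have h2 : u * c = 1 * 1 := by rw [h1, one_mul]
    exact hu1 (hF.unique hu T.one_mem hc.2 (Subgroup.one_mem _) h2).1
  have hSB : ∀ u ∈ T, u ≠ 1 → H ⊓ stabilizer G (u • α) = B := fun u hu hu1 => hA u hu (hNR u hu hu1)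
  have hBT : ∀ b ∈ B, ∀ u ∈ T, b * u = u * b := by
    intro b hb u hu
    by_cases hu1 : u = 1
    · rw [hu1]; simp
    · have h1 := hb
      rw [← hSB u hu hu1] at h1
      have h2 : b • (u • α) = u • α := h1.2
      rw [smul_eq α b h1.1] at h2
      have h3 := hMeq _ (hM.conj_mem u (hF.le hu) b) u (hF.le hu) h2
      calc b * u = (b * u * b⁻¹) * b := by group
        _ = u * b := by rw [h3]
  -- B normalized by H
  obtain ⟨p, q, hp, hq, hpq, ⟨x, hx, hxp⟩, ⟨u', hu', hu'q⟩⟩ := hF.exists_primes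
  have hBn : ∀ h ∈ H, cj h B = B := by
    intro k hk
    by_cases hkT : cj k T = T
    · have : k ∈ B := ⟨hk, mem_norm.2 hkT⟩
      apply cj_eq_of_le
      intro z hz
      rw [mem_cj] at hz
      have h1 := B.mul_mem (B.mul_mem this hz) (B.inv_mem this)
      have e : k * (k⁻¹ * z * k) * k⁻¹ = z := by group
      rwa [e] at h1
    · have hcom := ((hF.dich k).resolve_left hkT).2
      set u := k * u' * k⁻¹ with hu
      have huk : u ∈ cj k T := conj_mem_cj hu'
      have huM : u ∈ M := hM.conj_mem _ (hF.le hu') k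
      have huq : orderOf u = q := by
        have : u = MulAut.conj k u' := rfl
        rw [this, MulEquiv.orderOf_eq, hu'q]
      have hux : u * x = x * u := hcom u huk x hx
      set m := x * u with hm
      have hmM : m ∈ M := M.mul_mem (hF.le hx) huM
      have hmq : m ^ q = x ^ q := by
        rw [hm, (show Commute x u from hux.symm).mul_pow, ← huq, pow_orderOf_eq_one, mul_one]
      have hmp : m ^ p = u ^ p := by
        rw [hm, (show Commute x u from hux.symm).mul_pow, ← hxp, pow_orderOf_eq_one, one_mul]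
      have hxq1 : x ^ q ≠ 1 := by
        intro h
        have := orderOf_dvd_of_pow_eq_one h
        rw [hxp] at this
        exact hpq ((Nat.prime_dvd_prime_iff_eq hp hq).1 this)
      have hup1 : u ^ p ≠ 1 := by
        intro h
        have := orderOf_dvd_of_pow_eq_one h
        rw [huq] at this
        exact hpq ((Nat.prime_dvd_prime_iff_eq hq hp).1 this).symm
      have hS : ∀ h ∈ H ⊓ stabilizer G (m • α), h * m * h⁻¹ = m := by
        rintro h ⟨hh, hf⟩
        have hf' : h • (m • α) = m • α := hf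
        rw [smul_eq α h hh] at hf'
        exact hMeq _ (hM.conj_mem m hmM h) m hmM hf'
      have hS1 : H ⊓ stabilizer G (m • α) ≤ B := by
        intro h hh
        have h1 := hS h hh
        refine ⟨hh.1, mem_norm.2 ?_⟩
        have h2 : h * x ^ q * h⁻¹ = x ^ q := by rw [← hmq, ← conj_pow, h1]
        rcases hF.dich h with h3 | h3
        · exact h3
        · exfalso
          have h4 : x ^ q ∈ cj h T ⊓ T := ⟨h2 ▸ conj_mem_cj (T.pow_mem hx q), T.pow_mem hx q⟩
          rw [h3.1, Subgroup.mem_bot] at h4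
          exact hxq1 h4
      have hS2 : H ⊓ stabilizer G (m • α) ≤ cj k B := by
        intro h hh
        have h1 := hS h hh
        rw [mem_cj]
        refine ⟨H.mul_mem (H.mul_mem (H.inv_mem hk) hh.1) hk, mem_norm.2 ?_⟩
        have h2 : h * u ^ p * h⁻¹ = u ^ p := by rw [← hmp, ← conj_pow, h1]
        have h2' : (k⁻¹ * h * k) * u' ^ p * (k⁻¹ * h * k)⁻¹ = u' ^ p := by
          rw [hu, conj_pow] at h2
          calc (k⁻¹ * h * k) * u' ^ p * (k⁻¹ * h * k)⁻¹ = k⁻¹ * (h * (k * u' ^ p * k⁻¹) * h⁻¹) * k := by group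
            _ = k⁻¹ * (k * u' ^ p * k⁻¹) * k := by rw [h2]
            _ = u' ^ p := by group
        rcases hF.dich (k⁻¹ * h * k) with h3 | h3
        · exact h3
        · exfalso
          have h4 : u' ^ p ∈ cj (k⁻¹ * h * k) T ⊓ T := ⟨by
            have := conj_mem_cj (g := k⁻¹ * h * k) (T.pow_mem hu' p)
            rwa [h2'] at this, T.pow_mem hu' p⟩
          rw [h3.1, Subgroup.mem_bot] at h4
          apply hup1
          rw [hu, conj_pow, h4]; simp
      have hmove : ∃ h ∈ H, h • (m • α) ≠ m • α := by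
        by_contra hcon
        push Not at hcon
        exact hh0T (mem_norm.1 (hS1 ⟨hh0, hcon h0 hh0⟩).2)
      have h1 := (stab_max H (m • α) (hep _) hmove B hS1 inf_le_left).resolve_right hBH
      have hkB : cj k B ≤ H := by
        intro z hz
        rw [mem_cj] at hz
        have h2 := H.mul_mem (H.mul_mem hk hz.1) (H.inv_mem hk)
        have e : k * (k⁻¹ * z * k) * k⁻¹ = z := by group
        rwa [e] at h2
      rcases stab_max H (m • α) (hep _) hmove (cj k B) hS2 hkB with h2 | h2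
      · rw [h2, ← h1]
      · exfalso
        apply hBH
        apply Subgroup.eq_of_le_of_card_ge inf_le_left
        rw [← card_cj k B, h2]
  have hBbot : B = ⊥ := by
    apply bot_of_centralize hF htr α B inf_le_left hBT
    intro h hh z hz
    have h1 := hBn h⁻¹ (H.inv_mem hh)
    have h2 : h⁻¹ * z * h⁻¹⁻¹ ∈ cj h⁻¹ B := conj_mem_cj hz
    rw [h1, inv_inv] at h2
    exact h2
  -- final contradiction
  have hx1 : x ≠ 1 := by
    rintro rfl
    rw [orderOf_one] at hxp
    exact hp.one_lt.ne hxp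
  have hstab := hSB x hx hx1
  have hh01 : h0 ≠ 1 := by
    rintro rfl
    exact hh0T (cj_one T)
  have hmove : ∃ h ∈ H, h • (x • α) ≠ x • α := by
    by_contra hcon
    push Not at hcon
    have : h0 ∈ H ⊓ stabilizer G (x • α) := ⟨hh0, hcon h0 hh0⟩
    rw [hstab, hBbot, Subgroup.mem_bot] at this
    exact hh01 this
  have hHz : Subgroup.zpowers h0 = H := by
    rcases stab_max H (x • α) (hep _) hmove (Subgroup.zpowers h0) (by rw [hstab, hBbot]; exact bot_le)
      ((Subgroup.zpowers_le).2 hh0) with h1 | h1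
    · rw [hstab, hBbot, Subgroup.zpowers_eq_bot] at h1
      exact absurd h1 hh01
    · exact h1
  set n := orderOf h0 with hn
  have hnpos : 0 < n := orderOf_pos h0
  have hind : ∀ k : ℕ, k + 1 ≤ n → ∃ c ∈ M ⊓ Subgroup.centralizer (T : Set G), (x * h0) ^ (k + 1) = x * c * h0 ^ (k + 1) := by
    intro k
    induction k with
    | zero =>
      intro _
      refine ⟨1, Subgroup.one_mem _, ?_⟩
      simp
    | succ k ih =>
      intro hk
      obtain ⟨c, hc, e⟩ := ih (by omega)
      have h1 : h0 ^ (k + 1) ≠ 1 := by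
        intro h
        have h2 := Nat.le_of_dvd (Nat.succ_pos k) (orderOf_dvd_of_pow_eq_one h)
        omega
      have h2 : cj (h0 ^ (k + 1)) T ≠ T := by
        intro h
        have h3 : h0 ^ (k + 1) ∈ B := ⟨H.pow_mem hh0 _, mem_norm.2 h⟩
        rw [hBbot, Subgroup.mem_bot] at h3
        exact h1 h3
      have h3 := ((hF.dich (h0 ^ (k + 1))).resolve_left h2).2
      have h4 : h0 ^ (k + 1) * x * (h0 ^ (k + 1))⁻¹ ∈ M ⊓ Subgroup.centralizer (T : Set G) := by
        refine ⟨hM.conj_mem x (hF.le hx) _, Subgroup.mem_centralizer_iff.2 ?_⟩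
        intro y hy
        exact (h3 _ (conj_mem_cj hx) y hy).symm
      refine ⟨c * (h0 ^ (k + 1) * x * (h0 ^ (k + 1))⁻¹), Subgroup.mul_mem _ hc h4, ?_⟩
      rw [pow_succ, e, pow_succ h0 (k + 1)]
      group
  obtain ⟨c, hc, e⟩ := hind (n - 1) (by omega)
  rw [Nat.sub_add_cancel hnpos, hn, pow_orderOf_eq_one, mul_one, ← hn] at e
  have hcomm1 : (x * h0) * (x * c) = (x * c) * (x * h0) := by
    rw [← e]
    exact (Commute.refl (x * h0)).pow_right n
  have hcx : c * x = x * c := Factor.comm hc.2 hx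
  have hcomm2 : h0 * (x * c) = (x * c) * h0 := by
    calc h0 * (x * c) = x⁻¹ * ((x * h0) * (x * c)) := by group
      _ = x⁻¹ * ((x * c) * (x * h0)) := by rw [hcomm1]
      _ = (c * x) * h0 := by group
      _ = (x * c) * h0 := by rw [hcx]
  have hxcne : (x * c) • α ≠ α := by
    intro h
    exact hNR x hx hx1 c hc h
  have hHfix : H ≤ stabilizer G ((x * c) • α) := by
    rw [← hHz, Subgroup.zpowers_le, mem_stabilizer_iff, ← mul_smul, hcomm2, mul_smul]
    congr 1
  have hntΩ : Nontrivial Ω := ⟨_, _, hxcne⟩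
  rcases eq_of_stab_le hprim hntΩ α _ hHfix with h1 | h1
  · have h2 : H ≠ ⊥ := by
      intro h
      rw [h, Subgroup.mem_bot] at hh0
      exact hh01 hh0
    exact hxcne (stab_inj hprim (stab_ne_bot hprim α h2) _ _ h1)
  · obtain ⟨g, hg⟩ := hprim.exists_smul_eq ((x * c) • α) α
    have : g ∈ stabilizer G ((x * c) • α) := h1 ▸ Subgroup.mem_top g
    rw [mem_stabilizer_iff, hg] at this
    exact hxcne this.symm

theorem case1b [Finite G] [Finite Ω] [FaithfulSMul G Ω] (hprim : IsPreprimitive G Ω) (α : Ω)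
    (hep : ∀ ω : Ω, IsPreprimitive (stabilizer G α) (orbit (stabilizer G α) ω))
    (M T : Subgroup G) [hM : M.Normal] (hMne : M ≠ ⊥) (hF : Factor M T) (hne : T ≠ M)
    (hR : ∀ t ∈ T, ∃ c ∈ M ⊓ Subgroup.centralizer (T : Set G), t * c ∈ stabilizer G α) : False := by
  classical
  have htr := normal_transitive hprim M hM hMne
  obtain ⟨h0, hh0, hh0T⟩ := exists_move hF hne htr α
  have hcent : ∀ {X : Subgroup G} {c : G}, c ∈ Subgroup.centralizer (X : Set G) → ∀ x ∈ X, c * x = x * c :=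
    fun hc x hx => (Subgroup.mem_centralizer_iff.1 hc x hx).symm
  set H := stabilizer G α with hH
  have hh01 : h0 ≠ 1 := by
    rintro rfl
    exact hh0T (cj_one T)
  have hntΩ : ∃ ω : Ω, ω ≠ α := by
    by_contra hcon
    push Not at hcon
    apply hh01
    apply FaithfulSMul.eq_of_smul_eq_smul (α := Ω)
    intro x
    rw [hcon x, one_smul]; exact hh0
  have hMH' : ¬ M ≤ H := by
    intro h
    obtain ⟨ω, hω⟩ := hntΩ
    obtain ⟨m, hm, e⟩ := htr α ω
    exact hω (by rw [← e]; exact h hm)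
  -- T ⊓ H = ⊥
  have hTH : T ⊓ H = ⊥ := by
    by_contra hne'
    have h1 := hF.simple (T ⊓ H) inf_le_left hne' (by
      rintro t ht a ⟨ha1, ha2⟩
      obtain ⟨c, hc, htc⟩ := hR t ht
      refine ⟨T.mul_mem (T.mul_mem ht ha1) (T.inv_mem ht), ?_⟩
      have h2 := H.mul_mem (H.mul_mem htc ha2) (H.inv_mem htc)
      have e : t * c * a * (t * c)⁻¹ = t * a * t⁻¹ := by
        have h3 := hcent hc.2 a ha1
        calc t * c * a * (t * c)⁻¹ = t * (c * a) * c⁻¹ * t⁻¹ := by group
          _ = t * (a * c) * c⁻¹ * t⁻¹ := by rw [h3]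
          _ = t * a * t⁻¹ := by group
      rw [e] at h2
      exact h2)
    have h2 : T ≤ H := by rw [← h1]; exact inf_le_right
    apply hMH'
    rw [← hF.gen]
    apply iSup_le
    intro g
    obtain ⟨h, hh, e⟩ := exists_H hF htr α g
    rw [e]
    intro z hz
    rw [mem_cj] at hz
    have h3 := H.mul_mem (H.mul_mem hh (h2 hz)) (H.inv_mem hh)
    have e : h * (h⁻¹ * z * h) * h⁻¹ = z := by group
    rwa [e] at h3
  have hTk : ∀ k ∈ H, ∀ z ∈ cj k T, z ∈ H → z = 1 := by
    intro k hk z hz hzH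
    rw [mem_cj] at hz
    have h1 : k⁻¹ * z * k ∈ T ⊓ H := ⟨hz, H.mul_mem (H.mul_mem (H.inv_mem hk) hzH) hk⟩
    rw [hTH, Subgroup.mem_bot] at h1
    calc z = k * (k⁻¹ * z * k) * k⁻¹ := by group
      _ = 1 := by rw [h1]; group
  set L := H ⊓ (M ⊓ Subgroup.centralizer (T : Set G)) with hL
  -- conjugation of centralizers
  have hcc : ∀ g : G, cj g T = T → ∀ c ∈ Subgroup.centralizer (T : Set G), g * c * g⁻¹ ∈ Subgroup.centralizer (T : Set G) := by
    intro g hg c hc
    rw [Subgroup.mem_centralizer_iff]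
    intro y hy
    have h1 : g⁻¹ * y * g ∈ T := by
      rw [← mem_cj, hg]; exact hy
    have h2 := hcent hc _ h1
    calc y * (g * c * g⁻¹) = g * ((g⁻¹ * y * g) * c) * g⁻¹ := by group
      _ = g * (c * (g⁻¹ * y * g)) * g⁻¹ := by rw [h2]
      _ = g * c * g⁻¹ * y := by group
  have hLn : ∀ g ∈ H, cj g T = T → ∀ l ∈ L, g * l * g⁻¹ ∈ L := by
    rintro g hg hgT l ⟨hl1, hl2, hl3⟩
    exact ⟨H.mul_mem (H.mul_mem hg hl1) (H.inv_mem hg), hM.conj_mem l hl2 g, hcc g hgT l hl3⟩
  -- (ii)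
  have hii : ∀ t ∈ T, t ≠ 1 → ∃ m ∈ M ⊓ H, m • (t • α) ≠ t • α := by
    intro t ht ht1
    obtain ⟨x, hx, hxt⟩ : ∃ x ∈ T, x * t ≠ t * x := by
      by_contra hcon
      push Not at hcon
      apply ht1
      apply hF.eq_one ht
      rw [Subgroup.mem_centralizer_iff]
      exact hcon
    obtain ⟨c, hc, hxc⟩ := hR x hx
    refine ⟨x * c, ⟨M.mul_mem (hF.le hx) hc.1, hxc⟩, ?_⟩
    intro hf
    have h1 := mem_of_fix α _ hxc t hf
    have e : t⁻¹ * (x * c * t * (x * c)⁻¹) = t⁻¹ * (x * t * x⁻¹) := by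
      have h3 := hcent hc.2 t ht
      calc t⁻¹ * (x * c * t * (x * c)⁻¹) = t⁻¹ * (x * (c * t) * c⁻¹ * x⁻¹) := by group
        _ = t⁻¹ * (x * (t * c) * c⁻¹ * x⁻¹) := by rw [h3]
        _ = _ := by group
    rw [e] at h1
    have h2 : t⁻¹ * (x * t * x⁻¹) ∈ T ⊓ H := ⟨T.mul_mem (T.inv_mem ht) (T.mul_mem (T.mul_mem hx ht) (T.inv_mem hx)), h1⟩
    rw [hTH, Subgroup.mem_bot] at h2
    apply hxt
    calc x * t = t * (t⁻¹ * (x * t * x⁻¹)) * x := by group
      _ = t * x := by rw [h2]; group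
  -- (iii)
  have hiii : ∀ t ∈ T, t ≠ 1 → ∀ h ∈ H ⊓ stabilizer G (t • α), ∀ l ∈ L, h * l * h⁻¹ ∈ L := by
    rintro t ht ht1 h ⟨hh, hf⟩
    by_cases hhT : cj h T = T
    · exact hLn h hh hhT
    · have hcom := ((hF.dich h).resolve_left hhT).2
      set t' := h * t * h⁻¹ with ht'
      have ht'T : t' ∈ cj h T := conj_mem_cj ht
      have he : t⁻¹ * t' ∈ H := mem_of_fix α h hh t hf
      have hcjn : ∀ m ∈ M, ∀ z ∈ cj h T, m * z * m⁻¹ ∈ cj h T := by
        intro m hm z hz
        rw [mem_cj] at hz ⊢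
        have h1 : h⁻¹ * m * h ∈ M := by simpa using hM.conj_mem m hm h⁻¹
        have h2 := hF.norm _ h1 _ hz
        have e : h⁻¹ * m * h * (h⁻¹ * z * h) * (h⁻¹ * m * h)⁻¹ = h⁻¹ * (m * z * m⁻¹) * h := by group
        rwa [e] at h2
      -- l commutes with t'
      have hlt' : ∀ l ∈ L, l * t' = t' * l := by
        intro l hl
        have hlt := hcent hl.2.2 t ht
        have h1 : (l * t' * l⁻¹) * t'⁻¹ ∈ cj h T := Subgroup.mul_mem _ (hcjn l hl.2.1 t' ht'T) (Subgroup.inv_mem _ ht'T)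
        have h2 := hcom _ h1 t ht
        have h3 : (l * t' * l⁻¹) * t'⁻¹ ∈ H := by
          have h4 := H.mul_mem (H.mul_mem (H.mul_mem hl.1 he) (H.inv_mem hl.1)) (H.inv_mem he)
          have e : l * (t⁻¹ * t') * l⁻¹ * (t⁻¹ * t')⁻¹ = (l * t' * l⁻¹) * t'⁻¹ := by
            have h5 : l * t⁻¹ = t⁻¹ * l := by
              calc l * t⁻¹ = t⁻¹ * (t * l) * t⁻¹ := by group
                _ = t⁻¹ * (l * t) * t⁻¹ := by rw [hlt]
                _ = t⁻¹ * l := by group
            calc l * (t⁻¹ * t') * l⁻¹ * (t⁻¹ * t')⁻¹ = (l * t⁻¹) * t' * l⁻¹ * t'⁻¹ * t := by group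
              _ = t⁻¹ * (((l * t' * l⁻¹) * t'⁻¹) * t) := by rw [h5]; group
              _ = t⁻¹ * (t * ((l * t' * l⁻¹) * t'⁻¹)) := by rw [h2]
              _ = (l * t' * l⁻¹) * t'⁻¹ := by group
          rwa [e] at h4
        have h4 := hTk h hh _ h1 h3
        calc l * t' = ((l * t' * l⁻¹) * t'⁻¹) * t' * l := by group
          _ = t' * l := by rw [h4]; group
      -- K
      let K : Subgroup G := T ⊓ cj h⁻¹ (Subgroup.centralizer (L : Set G))
      have hK1 : K ≠ ⊥ := by
        intro hK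
        have h1 : t ∈ K := by
          refine ⟨ht, mem_cj.2 ?_⟩
          rw [inv_inv, Subgroup.mem_centralizer_iff]
          intro l hl
          exact hlt' l hl
        rw [hK, Subgroup.mem_bot] at h1
        exact ht1 h1
      have hK2 := hF.simple K inf_le_left hK1 (by
        rintro x hx y ⟨hy1, hy2⟩
        refine ⟨T.mul_mem (T.mul_mem hx hy1) (T.inv_mem hx), mem_cj.2 ?_⟩
        have hy2' := mem_cj.1 hy2
        rw [inv_inv] at hy2' ⊢
        obtain ⟨c, hc, hxc⟩ := hR x hx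
        -- g = h (x c) h⁻¹ ∈ H ∩ M normalizes L
        set g := h * (x * c) * h⁻¹ with hg
        have hgH : g ∈ H := H.mul_mem (H.mul_mem hh hxc) (H.inv_mem hh)
        have hgM : g ∈ M := hM.conj_mem _ (M.mul_mem (hF.le hx) hc.1) h
        have e : h * (x * y * x⁻¹) * h⁻¹ = g * (h * y * h⁻¹) * g⁻¹ := by
          have h3 := hcent hc.2 y hy1
          rw [hg]
          calc h * (x * y * x⁻¹) * h⁻¹ = h * (x * (y * c) * c⁻¹ * x⁻¹) * h⁻¹ := by group
            _ = h * (x * (c * y) * c⁻¹ * x⁻¹) * h⁻¹ := by rw [h3]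
            _ = _ := by group
        rw [e, Subgroup.mem_centralizer_iff]
        intro l hl
        have h4 := hLn g⁻¹ (H.inv_mem hgH) (cj_M hF (M.inv_mem hgM)) l hl
        rw [inv_inv] at h4
        have h5 := hcent hy2' _ h4
        calc l * (g * (h * y * h⁻¹) * g⁻¹) = g * ((g⁻¹ * l * g) * (h * y * h⁻¹)) * g⁻¹ := by group
          _ = g * ((h * y * h⁻¹) * (g⁻¹ * l * g)) * g⁻¹ := by rw [h5]
          _ = _ := by group)
      have hLle : cj h⁻¹ L ≤ L := by
        intro z hz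
        rw [mem_cj, inv_inv] at hz
        refine ⟨?_, ?_, Subgroup.mem_centralizer_iff.2 ?_⟩
        · have h1 := H.mul_mem (H.mul_mem (H.inv_mem hh) hz.1) hh
          have e : h⁻¹ * (h * z * h⁻¹) * h = z := by group
          rwa [e] at h1
        · have h1 := hM.conj_mem _ hz.2.1 h⁻¹
          have e : h⁻¹ * (h * z * h⁻¹) * h⁻¹⁻¹ = z := by group
          rwa [e] at h1
        · intro y hy
          have hyK : y ∈ K := by rw [hK2]; exact hy
          have h1 := mem_cj.1 hyK.2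
          rw [inv_inv] at h1
          have h2 := hcent h1 _ hz
          calc y * z = h⁻¹ * ((h * y * h⁻¹) * (h * z * h⁻¹)) * h := by group
            _ = h⁻¹ * ((h * z * h⁻¹) * (h * y * h⁻¹)) * h := by rw [h2]
            _ = z * y := by group
      have hLeq := cj_eq_of_le hLle
      intro l hl
      rw [← hLeq, mem_cj, inv_inv] at hl
      exact hl
  obtain ⟨t, ht, ht1⟩ : ∃ t ∈ T, t ≠ 1 := by
    by_contra hcon
    push Not at hcon
    exact hF.ne_bot ((Subgroup.eq_bot_iff_forall _).2 hcon)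
  obtain ⟨m1, hm1, hm1f⟩ := hii t ht ht1
  have hmove : ∃ h ∈ H, h • (t • α) ≠ t • α := ⟨m1, hm1.2, hm1f⟩
  -- L = ⊥
  have hLbot : L = ⊥ := by
    have hnorm : ∀ g ∈ H, (∀ l ∈ L, g * l * g⁻¹ ∈ L) → g ∈ Subgroup.normalizer (L : Set G) := by
      intro g hg h
      rw [mem_norm]
      apply cj_eq_of_le
      intro z hz
      rw [mem_cj] at hz
      have h1 := h _ hz
      have e : g * (g⁻¹ * z * g) * g⁻¹ = z := by group
      rwa [e] at h1
    have h1 : H ⊓ stabilizer G (t • α) ≤ H ⊓ Subgroup.normalizer (L : Set G) := by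
      intro h hh
      exact ⟨hh.1, hnorm h hh.1 (hiii t ht ht1 h hh)⟩
    have h2 : M ⊓ H ≤ H ⊓ Subgroup.normalizer (L : Set G) := by
      intro m hm
      exact ⟨hm.2, hnorm m hm.2 (hLn m hm.2 (cj_M hF hm.1))⟩
    have h3 : H ⊓ Subgroup.normalizer (L : Set G) = H := by
      rcases stab_max H (t • α) (hep _) hmove _ h1 inf_le_left with h4 | h4
      · exfalso
        rw [h4] at h2
        exact hm1f (h2 hm1).2
      · exact h4
    apply bot_of_centralize hF htr α L inf_le_left (fun x hx y hy => hcent hx.2.2 y hy)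
    intro h hh l hl
    have h4 : h⁻¹ ∈ H ⊓ Subgroup.normalizer (L : Set G) := by rw [h3]; exact H.inv_mem hh
    have h5 := (Subgroup.mem_normalizer_iff.1 h4.2 l).1 hl
    rw [inv_inv] at h5
    exact h5
  have hLk : ∀ k ∈ H, ∀ z ∈ H, z ∈ M → (∀ y ∈ cj k T, z * y = y * z) → z = 1 := by
    intro k hk z hz hzM hzc
    have h1 : k⁻¹ * z * k ∈ L := by
      refine ⟨H.mul_mem (H.mul_mem (H.inv_mem hk) hz) hk, by simpa using hM.conj_mem z hzM k⁻¹, Subgroup.mem_centralizer_iff.2 ?_⟩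
      intro y hy
      have h2 := hzc _ (conj_mem_cj (g := k) hy)
      calc y * (k⁻¹ * z * k) = k⁻¹ * ((k * y * k⁻¹) * z) * k := by group
        _ = k⁻¹ * (z * (k * y * k⁻¹)) * k := by rw [h2]
        _ = k⁻¹ * z * k * y := by group
    rw [hLbot, Subgroup.mem_bot] at h1
    calc z = k * (k⁻¹ * z * k) * k⁻¹ := by group
      _ = 1 := by rw [h1]; group
  -- find h in the stabilizer of tα moving T
  obtain ⟨h, ⟨hh, hf⟩, hhT⟩ : ∃ h ∈ H ⊓ stabilizer G (t • α), cj h T ≠ T := by
    by_contra hcon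
    push Not at hcon
    have h1 : H ⊓ stabilizer G (t • α) ≤ H ⊓ Subgroup.normalizer (T : Set G) := fun h hh => ⟨hh.1, mem_norm.2 (hcon h hh)⟩
    rcases stab_max H (t • α) (hep _) hmove _ h1 inf_le_left with h2 | h2
    · have h3 : m1 ∈ H ⊓ Subgroup.normalizer (T : Set G) := ⟨hm1.2, mem_norm.2 (cj_M hF hm1.1)⟩
      rw [h2] at h3
      exact hm1f h3.2
    · have h3 : h0 ∈ H ⊓ Subgroup.normalizer (T : Set G) := by rw [h2]; exact hh0
      exact hh0T (mem_norm.1 h3.2)
  have hcom := ((hF.dich h).resolve_left hhT).2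
  have he : t⁻¹ * (h * t * h⁻¹) ∈ H := mem_of_fix α h hh t hf
  have ht'T : h * t * h⁻¹ ∈ cj h T := conj_mem_cj ht
  -- only two conjugates
  have htwo : ∀ g : G, cj g T = T ∨ cj g T = cj h T := by
    intro g
    by_contra hcon
    push Not at hcon
    obtain ⟨hg1, hg2⟩ := hcon
    obtain ⟨k, hk, ek⟩ := exists_H hF htr α g
    have hc1 := ((hF.dich g).resolve_left hg1).2
    have hc2 : ∀ z ∈ cj g T, ∀ y ∈ cj h T, z * y = y * z := by
      have h1 : cj (h⁻¹ * g) T ≠ T := by
        intro e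
        apply hg2
        have e2 : cj h (cj (h⁻¹ * g) T) = cj h T := by rw [e]
        rw [← cj_mul] at e2
        have e3 : h * (h⁻¹ * g) = g := by group
        rwa [e3] at e2
      have h2 := ((hF.dich (h⁻¹ * g)).resolve_left h1).2
      intro z hz y hy
      have hz' : h⁻¹ * z * h ∈ cj (h⁻¹ * g) T := by
        rw [cj_mul, mem_cj]
        have e3 : h⁻¹⁻¹ * (h⁻¹ * z * h) * h⁻¹ = z := by group
        rw [e3]; exact hz
      have h3 := h2 _ hz' _ (mem_cj.1 hy)
      calc z * y = h * ((h⁻¹ * z * h) * (h⁻¹ * y * h)) * h⁻¹ := by group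
        _ = h * ((h⁻¹ * y * h) * (h⁻¹ * z * h)) * h⁻¹ := by rw [h3]
        _ = y * z := by group
    have h1 := hLk k hk _ he (M.mul_mem (M.inv_mem (hF.le ht)) (hM.conj_mem t (hF.le ht) h)) (by
      intro y hy
      rw [← ek] at hy
      have a1 := hc1 y hy _ (T.inv_mem ht)
      have a2 := hc2 y hy _ ht'T
      calc t⁻¹ * (h * t * h⁻¹) * y = t⁻¹ * ((h * t * h⁻¹) * y) := by group
        _ = t⁻¹ * (y * (h * t * h⁻¹)) := by rw [a2]
        _ = (t⁻¹ * y) * (h * t * h⁻¹) := by group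
        _ = (y * t⁻¹) * (h * t * h⁻¹) := by rw [a1]
        _ = y * (t⁻¹ * (h * t * h⁻¹)) := by group)
    have h2 := eq_of_inv_mul_eq_one h1
    have h3 : t ∈ cj h T ⊓ T := ⟨by rw [h2]; exact ht'T, ht⟩
    rw [((hF.dich h).resolve_left hhT).1, Subgroup.mem_bot] at h3
    exact ht1 h3
  have hMsup : T ⊔ cj h T = M := by
    apply le_antisymm
    · apply sup_le hF.le
      have := cj_mono (g := h) hF.le
      rwa [cj_normal hM] at this
    · nth_rewrite 1 [← hF.gen]
      apply iSup_le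
      intro g
      rcases htwo g with e | e
      · rw [e]; exact le_sup_left
      · rw [e]; exact le_sup_right
  have hdecomp : ∀ m ∈ M, ∃ s ∈ cj h T, ∃ t ∈ T, m = s * t := by
    intro m hm
    rw [← hMsup] at hm
    have hle : T ≤ Subgroup.normalizer ((cj h T : Subgroup G) : Set G) := by
      intro y hy
      rw [mem_norm]
      apply cj_eq_of_le
      intro z hz
      rw [mem_cj] at hz
      have h1 := hcom _ hz y hy
      have e : y⁻¹ * z * y = z := by
        calc y⁻¹ * z * y = y⁻¹ * (y⁻¹ * z * y) * y := by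
              have : z * y = y * (y⁻¹ * z * y) := by group
              have h2 : (y⁻¹ * z * y) * y = y * (y⁻¹ * z * y) := h1
              calc y⁻¹ * z * y = y⁻¹ * (y * (y⁻¹ * z * y)) := by group
                _ = y⁻¹ * ((y⁻¹ * z * y) * y) := by rw [h2]
                _ = _ := by group
          _ = y⁻¹ * ((y⁻¹ * z * y) * y) := by group
          _ = y⁻¹ * (y * (y⁻¹ * z * y)) := by rw [h1]
          _ = y⁻¹ * z * y := by group
          _ = z := by
            have h3 : (y⁻¹ * z * y) * y = z * y := by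
              rw [h1]; group
            exact mul_right_cancel h3
      rwa [e] at hz
    rw [sup_comm, ← SetLike.mem_coe, Subgroup.coe_mul_of_right_le_normalizer_left _ _ hle] at hm
    obtain ⟨s, hs, u, hu, e⟩ := Set.mem_mul.1 hm
    exact ⟨s, hs, u, hu, e.symm⟩
  have htr2 : ∀ ω : Ω, ∃ s ∈ cj h T, s • α = ω := by
    intro ω
    obtain ⟨m, hm, e⟩ := htr α ω
    obtain ⟨s, hs, u, hu, rfl⟩ := hdecomp m hm
    obtain ⟨c, hc, huc⟩ := hR u hu
    obtain ⟨s1, hs1, t1, htt1, ec⟩ := hdecomp c hc.1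
    have h1 : t1 = 1 := by
      apply hF.eq_one htt1
      have : t1 = s1⁻¹ * c := by rw [ec]; group
      rw [this]
      apply Subgroup.mul_mem _ (Subgroup.inv_mem _ ?_) hc.2
      rw [Subgroup.mem_centralizer_iff]
      intro y hy
      exact (hcom s1 hs1 y hy).symm
    rw [h1, mul_one] at ec
    refine ⟨s * s1⁻¹, Subgroup.mul_mem _ hs (Subgroup.inv_mem _ hs1), ?_⟩
    have h2 : (u * s1) • α = α := by rw [← ec]; exact huc
    rw [← hcom s1 hs1 u hu, mul_smul] at h2
    have h3 : u • α = s1⁻¹ • α := by rw [eq_inv_smul_iff, h2]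
    rw [mul_smul, ← h3, ← mul_smul, e]
  refine caseX α hep T (cj h T) (isSimple_factor hF) hF.nonab hcom ?_ ?_ ?_ ?_
  · intro y hy ω hω
    obtain ⟨m, hm, e⟩ := htr α ω
    have h1 : m⁻¹ * y * m ∈ T ⊓ H := by
      refine ⟨?_, ?_⟩
      · have := hF.norm m⁻¹ (M.inv_mem hm) y hy
        rwa [inv_inv] at this
      · show (m⁻¹ * y * m) • α = α
        rw [mul_smul, mul_smul, e, hω, ← e, inv_smul_smul]
    rw [hTH, Subgroup.mem_bot] at h1
    calc y = m * (m⁻¹ * y * m) * m⁻¹ := by group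
      _ = 1 := by rw [h1]; group
  · intro x y
    obtain ⟨s1, hs1, e1⟩ := htr2 x
    obtain ⟨s2, hs2, e2⟩ := htr2 y
    refine ⟨s2 * s1⁻¹, Subgroup.mul_mem _ hs2 (Subgroup.inv_mem _ hs1), ?_⟩
    rw [mul_smul, ← e1, inv_smul_smul, e2]
  · intro k hk y hy
    have h1 : k * y * k⁻¹ ∈ cj k T := conj_mem_cj hy
    rcases htwo k with e | e
    · left; rwa [e] at h1
    · right; rwa [e] at h1
  · intro k hk y hy
    rw [hMsup] at hy ⊢
    exact hM.conj_mem y hy k

end Cfsg.Agent.H20.EPX
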