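import Mathlib
set_option autoImplicit false

/-! kernel-checked upper bounds for automorphism groups of graphs given by bit masks -/
namespace Cfsg.Agent.H20.GrAut

def full (N : ℕ) : ℕ := 2 ^ N - 1

def row (rows : List ℕ) (i : ℕ) : ℕ := rows.getD i 0

/-- pairs of accumulated masks: bits occurring at least once / at least twice -/
def acc : List ℕ → ℕ × ℕ
  | [] => (0, 0)
  | r :: l => ((acc l).1 ||| r, (acc l).2 ||| ((acc l).1 &&& r))

theorem acc_spec (l : List ℕ) (j : ℕ) :
    ((acc l).1.testBit j = decide (1 ≤ l.countP (fun r => r.testBit j))) ∧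
    ((acc l).2.testBit j = decide (2 ≤ l.countP (fun r => r.testBit j))) := by
  induction l with
  | nil => simp [acc]
  | cons r l ih =>
    obtain ⟨h1, h2⟩ := ih
    rw [List.countP_cons]
    constructor
    · rw [acc, Nat.testBit_lor, h1]
      cases hr : r.testBit j <;> simp
    · rw [acc, Nat.testBit_lor, Nat.testBit_land, h1, h2]
      cases hr : r.testBit j
      · simp
      · simp only [Bool.and_true, ite_true]
        by_cases h3 : 1 ≤ l.countP (fun r => r.testBit j)
        · simp [h3]
        · simp only [h3, decide_false, Bool.or_false]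
          rw [decide_eq_decide]; omega

def nbs (N : ℕ) (rows : List ℕ) (i : ℕ) : List ℕ := (List.range N).filter (fun k => (row rows i).testBit k)

def acci (N : ℕ) (rows : List ℕ) (i : ℕ) : ℕ × ℕ := acc ((nbs N rows i).map (row rows))

/-- the relations attached to a vertex -/
def items (N : ℕ) (rows : List ℕ) (i : ℕ) : List ℕ :=
  [1 <<< i, row rows i, (acci N rows i).1, (acci N rows i).2]

def refine1 (fl m b R : ℕ) : ℕ := if R.testBit b then m &&& R else m &&& (fl ^^^ R)

def refineL (fl b : ℕ) : List ℕ → ℕ → ℕ
  | [], m => m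
  | R :: l, m => refineL fl b l (refine1 fl m b R)

def cand (fl b : ℕ) : List (List ℕ) → ℕ → ℕ
  | [], m => m
  | it :: pre, m => cand fl b pre (refineL fl b it m)

def maskOf : List ℕ → ℕ
  | [] => 0
  | c :: l => (1 <<< c) ||| maskOf l

def checkSteps (N : ℕ) (rows : List ℕ) (fl : ℕ) : List (ℕ × List ℕ) → List (List ℕ) → Bool
  | [], _ => true
  | (b, cs) :: st, pre => (cand fl b pre fl == maskOf cs) && checkSteps N rows fl st (items N rows b :: pre)

def adj {N : ℕ} (rows : List ℕ) (i j : Fin N) : Bool := (row rows i).testBit j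

section
variable {N : ℕ} (rows : List ℕ) (σ : Equiv.Perm (Fin N)) (hσ : ∀ i j, adj rows (σ i) (σ j) = adj rows i j)

theorem testBit_refine1 (fl m b R v : ℕ) (hv : fl.testBit v = true) :
    (refine1 fl m b R).testBit v = (m.testBit v && (R.testBit v == R.testBit b)) := by
  rw [refine1]
  by_cases h : R.testBit b = true
  · rw [if_pos h, Nat.testBit_land, h]; simp
  · rw [if_neg h, Nat.testBit_land, Nat.testBit_xor, hv]
    simp only [Bool.not_eq_true] at h
    rw [h]
    cases R.testBit v <;> simp

theorem testBit_refineL (fl b : ℕ) (l : List ℕ) (m v : ℕ) (hv : fl.testBit v = true) (hm : m.testBit v = true)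
    (hl : ∀ R ∈ l, R.testBit v = R.testBit b) : (refineL fl b l m).testBit v = true := by
  induction l generalizing m with
  | nil => exact hm
  | cons R l ih =>
    rw [refineL]
    apply ih
    · rw [testBit_refine1 _ _ _ _ _ hv, hm, hl R List.mem_cons_self]; simp
    · intro R' hR'
      exact hl R' (List.mem_cons_of_mem _ hR')

theorem testBit_cand (fl b : ℕ) (pre : List (List ℕ)) (m v : ℕ) (hv : fl.testBit v = true) (hm : m.testBit v = true)
    (hl : ∀ it ∈ pre, ∀ R ∈ it, R.testBit v = R.testBit b) : (cand fl b pre m).testBit v = true := by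
  induction pre generalizing m with
  | nil => exact hm
  | cons it pre ih =>
    rw [cand]
    apply ih
    · exact testBit_refineL fl b it m v hv hm (hl it List.mem_cons_self)
    · intro it' h'
      exact hl it' (List.mem_cons_of_mem _ h')

theorem testBit_maskOf (cs : List ℕ) (v : ℕ) : (maskOf cs).testBit v = true ↔ v ∈ cs := by
  induction cs with
  | nil => simp [maskOf]
  | cons c l ih =>
    rw [maskOf, Nat.testBit_lor, Bool.or_eq_true, ih, List.mem_cons]
    constructor
    · rintro (h | h)
      · left
        rw [Nat.one_shiftLeft, Nat.testBit_two_pow] at h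
        simpa [eq_comm] using h
      · right; exact h
    · rintro (h | h)
      · left
        rw [Nat.one_shiftLeft, Nat.testBit_two_pow, h]
        simp
      · right; exact h

theorem full_testBit (i : Fin N) : (full N).testBit i = true := by
  rw [full, Nat.testBit_two_pow_sub_one]
  simp

theorem countP_eq (i j : Fin N) : ((nbs N rows i).map (row rows)).countP (fun r => r.testBit j) =
    (Finset.univ.filter (fun k : Fin N => adj rows i k = true ∧ adj rows k j = true)).card := by
  rw [List.countP_map, nbs, List.countP_filter]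
  rw [← List.map_coe_finRange_eq_range, List.countP_map, Finset.card_filter]
  have h1 : ∀ (l : List (Fin N)), l.countP ((fun a : ℕ => ((fun r : ℕ => r.testBit j) ∘ row rows) a && (row rows i).testBit a) ∘ Fin.val) =
      (l.map (fun k : Fin N => if adj rows i k = true ∧ adj rows k j = true then 1 else 0)).sum := by
    intro l
    induction l with
    | nil => rfl
    | cons k l ih =>
      rw [List.countP_cons, ih, List.map_cons, List.sum_cons, add_comm]
      congr 1
      have h2 : ((fun a : ℕ => ((fun r : ℕ => r.testBit j) ∘ row rows) a && (row rows i).testBit a) ∘ Fin.val) k =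
        (adj rows k j && adj rows i k) := rfl
      rw [h2]
      cases adj rows k j <;> cases adj rows i k <;> simp
  rw [h1, ← List.sum_toFinset _ (List.nodup_finRange N), List.toFinset_finRange]

include hσ in
theorem count_inv (i j : Fin N) :
    (Finset.univ.filter (fun k : Fin N => adj rows (σ i) k = true ∧ adj rows k (σ j) = true)).card =
    (Finset.univ.filter (fun k : Fin N => adj rows i k = true ∧ adj rows k j = true)).card := by
  symm
  apply Finset.card_bij (fun k _ => σ k)
  · intro k hk
    rw [Finset.mem_filter] at hk ⊢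
    rw [hσ, hσ]
    exact ⟨Finset.mem_univ _, hk.2⟩
  · intro a _ b _ h
    exact σ.injective h
  · intro k hk
    refine ⟨σ.symm k, ?_, σ.apply_symm_apply k⟩
    rw [Finset.mem_filter] at hk ⊢
    refine ⟨Finset.mem_univ _, ?_, ?_⟩
    · rw [← hσ, σ.apply_symm_apply]; exact hk.2.1
    · rw [← hσ, σ.apply_symm_apply]; exact hk.2.2

include hσ in
/-- invariance of all the item relations -/
theorem items_inv (u b : Fin N) (hu : σ u = u) (R : ℕ) (hR : R ∈ items N rows u) :
    R.testBit (σ b) = R.testBit b := by
  simp only [items, List.mem_cons, List.mem_nil_iff, or_false] at hR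
  rcases hR with rfl | rfl | rfl | rfl
  · rw [Nat.one_shiftLeft, Nat.testBit_two_pow, Nat.testBit_two_pow, decide_eq_decide]
    constructor
    · intro h
      have h1 : u = σ b := Fin.ext h
      rw [← hu] at h1
      exact congrArg Fin.val (σ.injective h1)
    · intro h
      have h1 : u = b := Fin.ext h
      rw [← h1, hu]
  · have h1 := hσ u b
    rw [hu] at h1
    exact h1
  · rw [acci, (acc_spec _ _).1, (acc_spec _ _).1, countP_eq rows u (σ b), countP_eq rows u b]
    have h1 := count_inv rows σ hσ u b
    rw [hu] at h1
    rw [h1]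
  · rw [acci, (acc_spec _ _).2, (acc_spec _ _).2, countP_eq rows u (σ b), countP_eq rows u b]
    have h1 := count_inv rows σ hσ u b
    rw [hu] at h1
    rw [h1]

end

theorem card_le_mul {N : ℕ} (B : Subgroup (Equiv.Perm (Fin N))) (b : Fin N) (s m : ℕ)
    (hs : Nat.card (MulAction.orbit B b) ≤ s)
    (hm : Nat.card (B ⊓ MulAction.stabilizer (Equiv.Perm (Fin N)) b : Subgroup (Equiv.Perm (Fin N))) ≤ m) :
    Nat.card B ≤ s * m := by
  have h1 := Nat.card_congr (MulAction.orbitProdStabilizerEquivGroup B b)
  rw [Nat.card_prod] at h1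
  rw [← h1]
  apply Nat.mul_le_mul hs
  have h2 : Nat.card (MulAction.stabilizer B b) = Nat.card (B ⊓ MulAction.stabilizer (Equiv.Perm (Fin N)) b : Subgroup (Equiv.Perm (Fin N))) := by
    apply Nat.card_congr
    refine Equiv.ofBijective (fun g => ⟨((g : B) : Equiv.Perm (Fin N)), (g : B).2, ?_⟩) ⟨?_, ?_⟩
    · have := g.2
      rw [MulAction.mem_stabilizer_iff] at this
      exact this
    · intro g h hgh
      apply Subtype.ext; apply Subtype.ext
      have h3 := Subtype.ext_iff.mp hgh
      exact h3
    · rintro ⟨g, hg, hg'⟩
      exact ⟨⟨⟨g, hg⟩, hg'⟩, rfl⟩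
  rw [h2]; exact hm

theorem bound_aux {N : ℕ} (rows : List ℕ) (st : List (ℕ × List ℕ)) :
    ∀ (pre : List ℕ) (B : Subgroup (Equiv.Perm (Fin N))),
    (∀ σ ∈ B, ∀ i j, adj rows (σ i) (σ j) = adj rows i j) →
    (∀ σ ∈ B, ∀ u : Fin N, (u : ℕ) ∈ pre → σ u = u) →
    (∀ u ∈ pre, u < N) →
    (∀ x ∈ st, x.1 < N) →
    (∀ i : Fin N, (i : ℕ) ∈ pre ∨ (i : ℕ) ∈ st.map Prod.fst) →
    checkSteps N rows (full N) st (pre.map (items N rows)) = true →
    Nat.card B ≤ (st.map (fun x => x.2.length)).prod := by
  induction st with
  | nil =>
    intro pre B hB hfix _ _ hcov _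
    simp only [List.map_nil, List.prod_nil]
    have h1 : B = ⊥ := by
      rw [Subgroup.eq_bot_iff_forall]
      intro σ hσ
      ext1 i
      rcases hcov i with h | h
      · rw [hfix σ hσ i h]; rfl
      · simp at h
    rw [h1]; simp
  | cons x st ih =>
    obtain ⟨b, cs⟩ := x
    intro pre B hB hfix hpre hst hcov hcheck
    rw [checkSteps, Bool.and_eq_true, beq_iff_eq] at hcheck
    obtain ⟨hc, hcheck⟩ := hcheck
    have hb : b < N := hst _ List.mem_cons_self
    rw [List.map_cons, List.prod_cons]
    apply card_le_mul B ⟨b, hb⟩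
    · -- the orbit
      have h1 : Nat.card (MulAction.orbit B (⟨b, hb⟩ : Fin N)) ≤ Nat.card (cs.toFinset : Finset ℕ) := by
        refine Nat.card_le_card_of_injective (fun y : MulAction.orbit B (⟨b, hb⟩ : Fin N) => (⟨((y : Fin N) : ℕ), ?_⟩ : (cs.toFinset : Finset ℕ))) ?_
        swap
        · intro y z hyz
          apply Subtype.ext; apply Fin.ext
          exact congrArg Subtype.val hyz
        · obtain ⟨σ, hσ⟩ := y.2
          have h2 : (σ : Equiv.Perm (Fin N)) ⟨b, hb⟩ = y := hσ
          rw [List.mem_toFinset, ← testBit_maskOf, ← hc, ← h2]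
          apply testBit_cand
          · exact full_testBit _
          · exact full_testBit _
          · intro it hit R hR
            rw [List.mem_map] at hit
            obtain ⟨u, hu, rfl⟩ := hit
            exact items_inv rows σ (hB σ σ.2) ⟨u, hpre u hu⟩ ⟨b, hb⟩ (hfix σ σ.2 _ hu) R hR
      refine h1.trans ?_
      rw [Nat.card_eq_fintype_card, Fintype.card_coe]
      exact List.toFinset_card_le cs
    · apply ih (b :: pre)
      · intro σ hσ; exact hB σ hσ.1
      · intro σ hσ u hu
        rcases List.mem_cons.mp hu with h | h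
        · have h2 := hσ.2
          have h3 : u = ⟨b, hb⟩ := Fin.ext h
          rw [h3]; exact h2
        · exact hfix σ hσ.1 u h
      · intro u hu
        rcases List.mem_cons.mp hu with h | h
        · rw [h]; exact hb
        · exact hpre u h
      · intro x hx; exact hst x (List.mem_cons_of_mem _ hx)
      · intro i
        rcases hcov i with h | h
        · left; exact List.mem_cons_of_mem _ h
        · rw [List.map_cons, List.mem_cons] at h
          rcases h with h | h
          · left; rw [h]; exact List.mem_cons_self
          · right; exact h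
      · exact hcheck

/-- the full check -/
def check (N : ℕ) (rows : List ℕ) (st : List (ℕ × List ℕ)) : Bool :=
  st.all (fun x => decide (x.1 < N)) && (List.range N).all (fun i => (st.map Prod.fst).contains i) &&
    checkSteps N rows (full N) st []

theorem card_le {N : ℕ} (rows : List ℕ) (st : List (ℕ × List ℕ)) (h : check N rows st = true)
    (B : Subgroup (Equiv.Perm (Fin N))) (hB : ∀ σ ∈ B, ∀ i j, adj rows (σ i) (σ j) = adj rows i j) :
    Nat.card B ≤ (st.map (fun x => x.2.length)).prod := by
  rw [check, Bool.and_eq_true, Bool.and_eq_true, List.all_eq_true, List.all_eq_true] at h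
  obtain ⟨⟨h1, h2⟩, h3⟩ := h
  apply bound_aux rows st [] B hB
  · intro σ _ u hu; simp at hu
  · intro u hu; simp at hu
  · intro x hx; simpa using h1 x hx
  · intro i
    right
    have := h2 i (List.mem_range.mpr i.2)
    simpa using this
  · simpa using h3

end Cfsg.Agent.H20.GrAut
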