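import Cfsg.Agent.H20_HalfTr
set_option autoImplicit false

/-! 3/2-transitive groups with a regular normal subgroup -/
namespace Cfsg.Agent.H20.HT2
open MulAction Cfsg.Agent.H20.HalfTr

theorem exists_ne_one {G : Type*} [Group G] {K : Subgroup G} (hK : K ≠ ⊥) : ∃ z, z ∈ K ∧ z ≠ 1 := by
  by_contra h
  push Not at h
  exact hK ((Subgroup.eq_bot_iff_forall K).mpr h)

section
variable {G Ω : Type*} [Group G] [Finite G] [MulAction G Ω] [FaithfulSMul G Ω] [Finite Ω]
  (N : Subgroup G) [hN : N.Normal] (hNt : IsPretransitive N Ω) (hNr : ∀ a : Ω, stabilizer N a = ⊥)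

include hNr in
theorem inj {a : Ω} {x y : G} (hx : x ∈ N) (hy : y ∈ N) (h : x • a = y • a) : x = y := by
  have h1 : (⟨y⁻¹ * x, N.mul_mem (N.inv_mem hy) hx⟩ : N) ∈ stabilizer N a := by
    rw [mem_stabilizer_iff]
    change (y⁻¹ * x) • a = a
    rw [mul_smul, h, inv_smul_smul]
  rw [hNr a, Subgroup.mem_bot, Subtype.ext_iff] at h1
  have h2 : y⁻¹ * x = 1 := h1
  rw [inv_mul_eq_one] at h2
  exact h2.symm

include hNt in
theorem exists_n (a b : Ω) : ∃ x ∈ N, x • a = b := by
  obtain ⟨x, hx⟩ := hNt.exists_smul_eq a b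
  exact ⟨x, x.2, hx⟩

theorem smul_conj {a : Ω} {h x : G} (hh : h ∈ stabilizer G a) : h • (x • a) = (h * x * h⁻¹) • a := by
  have h1 : h⁻¹ • a = a := by
    rw [inv_smul_eq_iff]; exact (mem_stabilizer_iff.mp hh).symm
  rw [mul_smul, mul_smul, h1]

include hN hNr in
theorem stab_iff {a : Ω} {h x : G} (hh : h ∈ stabilizer G a) (hx : x ∈ N) :
    h • (x • a) = x • a ↔ h * x = x * h := by
  rw [smul_conj hh]
  constructor
  · intro h1
    have h2 := inj N hNr (hN.conj_mem x hx h) hx h1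
    calc h * x = h * x * h⁻¹ * h := by group
      _ = x * h := by rw [h2]
  · intro h1
    rw [h1, mul_inv_cancel_right]

include hNt hNr in
theorem card_N (a : Ω) : Nat.card N = Nat.card Ω := by
  apply Nat.card_congr
  refine Equiv.ofBijective (fun x : N => (x : G) • a) ⟨?_, ?_⟩
  · intro x y hxy
    exact Subtype.ext (inj N hNr x.2 y.2 hxy)
  · intro b
    obtain ⟨x, hx, h⟩ := exists_n N hNt a b
    exact ⟨⟨x, hx⟩, h⟩

end

section main
variable {G Ω : Type*} [Group G] [Finite G] [MulAction G Ω] [FaithfulSMul G Ω] [Finite Ω]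
  (N : Subgroup G) [hN : N.Normal] (hNt : IsPretransitive N Ω) (hNr : ∀ a : Ω, stabilizer N a = ⊥)
  (a : Ω) (k : ℕ) (hk : ∀ b, b ≠ a → Nat.card (orbit (stabilizer G a) b) = k)

/-- all `C_H(x)` in an `H`-block of size dividing `|N|` agree -/
theorem key (hNt : IsPretransitive N Ω) (hNr : ∀ a : Ω, stabilizer N a = ⊥)
    (hk : ∀ b, b ≠ a → Nat.card (orbit (stabilizer G a) b) = k)
    (B : Set G) (hBN : B ⊆ N) (h1B : (1 : G) ∉ B) (hcard : Nat.card B ∣ Nat.card N)
    (hblock : ∀ h ∈ stabilizer G a, ∀ x ∈ B, h * x * h⁻¹ ∈ B → ∀ y ∈ B, h * y * h⁻¹ ∈ B)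
    {x y : G} (hx : x ∈ B) (hy : y ∈ B) {h : G} (hh : h ∈ stabilizer G a) (hhx : h * x = x * h) :
    h * y = y * h := by
  classical
  set A : Set Ω := (fun x : G => x • a) '' B with hA
  have hne : ∀ b ∈ A, b ≠ a := by
    rintro b ⟨z, hz, rfl⟩ hb
    have h2 : z = 1 := inj N hNr (hBN hz) N.one_mem (by rw [one_smul]; exact hb)
    rw [h2] at hz
    exact h1B hz
  have hcardA : Nat.card A = Nat.card B := by
    symm
    apply Nat.card_congr
    refine Equiv.ofBijective (fun z : B => ⟨(z : G) • a, ⟨z, z.2, rfl⟩⟩) ⟨?_, ?_⟩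
    · intro z w hzw
      exact Subtype.ext (inj N hNr (hBN z.2) (hBN w.2) (Subtype.ext_iff.mp hzw))
    · rintro ⟨b, z, hz, rfl⟩
      exact ⟨⟨z, hz⟩, rfl⟩
  -- k divides |Ω| - 1
  have hkΩ : k ∣ Nat.card ({b : Ω | b ≠ a} : Set Ω) := by
    apply dvd_of_const (H := stabilizer G a)
    · rintro h b hb hb'
      apply hb
      have h2 : (h : G) • b = a := hb'
      have h3 := h.2
      rw [mem_stabilizer_iff] at h3
      exact (smul_left_cancel_iff _).mp (h2.trans h3.symm)
    · intro b hb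
      exact hk b hb
  have hΩ : Nat.card ({b : Ω | b ≠ a} : Set Ω) + 1 = Nat.card N := by
    rw [card_N N hNt hNr a]
    have h2 : ({b : Ω | b ≠ a} : Set Ω) = ({a} : Set Ω)ᶜ := by ext; simp
    rw [h2]
    have h3 := Set.ncard_add_ncard_compl ({a} : Set Ω)
    rw [Set.ncard_singleton] at h3
    change Set.ncard _ + 1 = _
    omega
  have hcopN : Nat.Coprime k (Nat.card N) := by
    rw [← hΩ]
    obtain ⟨c, hc⟩ := hkΩ
    rw [hc]
    simp
  have hcop : Nat.Coprime k (Nat.card A) := by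
    rw [hcardA]; exact Nat.Coprime.coprime_dvd_right hcard hcopN
  have hkpos : 0 < k := by
    rw [← hk (x • a) (hne _ ⟨x, hx, rfl⟩)]
    have : Nonempty (orbit (stabilizer G a) (x • a)) := ⟨⟨_, mem_orbit_self _⟩⟩
    exact Nat.card_pos
  have hcd : ∀ b, b ≠ a → k * Nat.card (stabilizer (stabilizer G a) b) = Nat.card (stabilizer G a) := by
    intro b hb
    have h2 := Nat.card_congr (MulAction.orbitProdStabilizerEquivGroup (stabilizer G a) b)
    rw [Nat.card_prod, hk b hb] at h2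
    exact h2
  have hst := block_stab (H := stabilizer G a) A k (Nat.card (stabilizer (stabilizer G a) (x • a)))
    (by
      intro b hb
      have h2 := hcd b (hne b hb)
      have h3 := hcd (x • a) (hne _ ⟨x, hx, rfl⟩)
      rw [← h3] at h2
      exact Nat.eq_of_mul_eq_mul_left hkpos h2)
    (hcd (x • a) (hne _ ⟨x, hx, rfl⟩)).symm
    (by
      rintro h' b ⟨z, hz, rfl⟩ hb c ⟨w, hw, rfl⟩
      have h2 : (h' : G) • (z • a) ∈ A := hb
      rw [smul_conj h'.2] at h2
      obtain ⟨u, hu, hu'⟩ := h2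
      have h3 := inj N hNr (hBN hu) (hN.conj_mem z (hBN hz) h') hu'
      rw [h3] at hu
      have h4 := hblock h' h'.2 z hz hu w hw
      refine ⟨h' * w * (h' : G)⁻¹, h4, ?_⟩
      exact (smul_conj h'.2).symm)
    hcop (x := x • a) (y := y • a) ⟨x, hx, rfl⟩ ⟨y, hy, rfl⟩
  have h5 : (⟨h, hh⟩ : stabilizer G a) ∈ stabilizer (stabilizer G a) (x • a) := by
    rw [mem_stabilizer_iff]
    exact (stab_iff N hNr hh (hBN hx)).mpr hhx
  rw [hst, mem_stabilizer_iff] at h5
  exact (stab_iff N hNr hh (hBN hy)).mp h5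

theorem main (hNt : IsPretransitive N Ω) (hNr : ∀ a : Ω, stabilizer N a = ⊥)
    (hk : ∀ b, b ≠ a → Nat.card (orbit (stabilizer G a) b) = k)
    (b : Ω) (hab : b ≠ a) (hst : stabilizer G a ⊓ stabilizer G b ≠ ⊥) :
    (∃ p : ℕ, p.Prime ∧ IsMulCommutative N ∧ ∀ x ∈ N, x ^ p = 1) ∧
    (∀ M : Subgroup G, M.Normal → M ≠ ⊥ → N ≤ M) := by
  classical
  have hdecomp : ∀ m : G, ∃ n ∈ N, ∃ h ∈ stabilizer G a, m = n * h := by
    intro m
    obtain ⟨n, hn, h⟩ := exists_n N hNt a (m • a)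
    refine ⟨n, hn, n⁻¹ * m, ?_, by group⟩
    rw [mem_stabilizer_iff, mul_smul, ← h, inv_smul_smul]
  have hcomm1 : ∀ h ∈ stabilizer G a, (∀ x ∈ N, h * x = x * h) → h = 1 := by
    intro h hh hc
    apply eq_of_smul_eq_smul (α := Ω)
    intro c
    obtain ⟨x, hx, rfl⟩ := exists_n N hNt a c
    rw [one_smul]
    exact (stab_iff N hNr hh hx).mpr (hc x hx)
  -- equality of the cardinalities
  have hcard : ∀ c, c ≠ a → k * Nat.card (stabilizer (stabilizer G a) c) = Nat.card (stabilizer G a) := by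
    intro b hb
    have h2 := Nat.card_congr (MulAction.orbitProdStabilizerEquivGroup (stabilizer G a) b)
    rw [Nat.card_prod, hk b hb] at h2
    exact h2
  have hkpos : 0 < k := by
    rw [← hk b hab]
    have : Nonempty (orbit (stabilizer G a) b) := ⟨⟨_, mem_orbit_self _⟩⟩
    exact Nat.card_pos
  have hxa : ∀ x ∈ N, x ≠ 1 → x • a ≠ a := by
    intro x hx h1 h2
    exact h1 (inj N hNr hx N.one_mem (by rw [one_smul]; exact h2))
  -- containment of centralizers in H implies equality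
  have hsymm : ∀ x ∈ N, x ≠ 1 → ∀ y ∈ N, y ≠ 1 →
      (∀ h ∈ stabilizer G a, h * x = x * h → h * y = y * h) →
      ∀ h ∈ stabilizer G a, h * y = y * h → h * x = x * h := by
    intro x hx hx1 y hy hy1 hxy h hh hhy
    have h1 : stabilizer (stabilizer G a) (x • a) ≤ stabilizer (stabilizer G a) (y • a) := by
      intro g hg
      rw [mem_stabilizer_iff] at hg ⊢
      exact (stab_iff N hNr g.2 hy).mpr (hxy g g.2 ((stab_iff N hNr g.2 hx).mp hg))
    have h2 := Subgroup.eq_of_le_of_card_ge h1 (by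
      apply le_of_eq
      have h3 := hcard (x • a) (hxa x hx hx1)
      have h4 := hcard (y • a) (hxa y hy hy1)
      rw [← h3] at h4
      exact Nat.eq_of_mul_eq_mul_left hkpos h4)
    have h5 : (⟨h, hh⟩ : stabilizer G a) ∈ stabilizer (stabilizer G a) (y • a) := by
      rw [mem_stabilizer_iff]
      exact (stab_iff N hNr hh hy).mpr hhy
    rw [← h2, mem_stabilizer_iff] at h5
    exact (stab_iff N hNr hh hx).mp h5
  -- a non-trivial element of H centralizing something
  obtain ⟨z, hz, hz1⟩ := exists_ne_one hst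
  obtain ⟨x0, hx0, hx0b⟩ := exists_n N hNt a b
  have hx01 : x0 ≠ 1 := by
    rintro rfl; exact hab (by rw [← hx0b, one_smul])
  have hzx0 : z * x0 = x0 * z := by
    apply (stab_iff N hNr hz.1 hx0).mp
    rw [hx0b]; exact hz.2
  -- not all C_H(y) are equal
  have hnotall : ∃ y ∈ N, y ≠ 1 ∧ ¬ (∀ h ∈ stabilizer G a, h * x0 = x0 * h → h * y = y * h) := by
    by_contra hcon
    push Not at hcon
    apply hz1
    apply hcomm1 z hz.1
    intro y hy
    by_cases hy1 : y = 1
    · rw [hy1, mul_one, one_mul]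
    · exact hcon y hy hy1 z hz.1 hzx0
  -- invariance: no proper invariant subgroups
  have hmin : ∀ K : Subgroup G, K ≤ N → K ≠ ⊥ → (∀ h ∈ stabilizer G a, ∀ x ∈ K, h * x * h⁻¹ ∈ K) → N ≤ K := by
    intro K hKN hK hKh
    by_contra hcon
    have h1 : ∀ x ∈ N, x ∉ K → ∀ y ∈ K, ∀ h ∈ stabilizer G a, h * x = x * h → h * y = y * h := by
      intro x hx hxK y hy h hh hhx
      have h2 : h * (x * y) = (x * y) * h := by
        refine key N a k hNt hNr hk (B := (fun u => x * u) '' (K : Set G)) ?_ ?_ ?_ ?_ (x := x) (y := x * y)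
          ⟨1, K.one_mem, by simp⟩ ⟨y, hy, rfl⟩ hh hhx
        · rintro _ ⟨u, hu, rfl⟩
          exact N.mul_mem hx (hKN hu)
        · rintro ⟨u, hu, h3⟩
          apply hxK
          have h4 : x = u⁻¹ := eq_inv_of_mul_eq_one_left h3
          rw [h4]; exact K.inv_mem hu
        · have h3 : Nat.card ((fun u => x * u) '' (K : Set G)) = Nat.card K := by
            have := Set.ncard_image_of_injective (K : Set G) (mul_right_injective x)
            exact this
          rw [h3]
          exact Subgroup.card_dvd_of_le hKN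
        · rintro g hg _ ⟨u, hu, rfl⟩ ⟨v, hv, hv'⟩ _ ⟨w, hw, rfl⟩
          have h5 : g * x * g⁻¹ = x * (v * (g * u⁻¹ * g⁻¹)) := by
            have h6 : x * v = g * (x * u) * g⁻¹ := hv'
            calc g * x * g⁻¹ = (g * (x * u) * g⁻¹) * (g * u⁻¹ * g⁻¹) := by group
              _ = x * (v * (g * u⁻¹ * g⁻¹)) := by rw [← h6, mul_assoc]
          refine ⟨v * (g * u⁻¹ * g⁻¹) * (g * w * g⁻¹), ?_, ?_⟩
          · exact K.mul_mem (K.mul_mem hv (hKh g hg _ (K.inv_mem hu))) (hKh g hg w hw)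
          · change x * (v * (g * u⁻¹ * g⁻¹) * (g * w * g⁻¹)) = g * (x * w) * g⁻¹
            calc x * (v * (g * u⁻¹ * g⁻¹) * (g * w * g⁻¹)) = (x * (v * (g * u⁻¹ * g⁻¹))) * (g * w * g⁻¹) := by group
              _ = (g * x * g⁻¹) * (g * w * g⁻¹) := by rw [← h5]
              _ = g * (x * w) * g⁻¹ := by group
      -- h (x y) = (x y) h and h x = x h
      have h3 : x * (h * y) = x * (y * h) := by
        calc x * (h * y) = h * (x * y) := by rw [← mul_assoc, ← hhx, mul_assoc]
          _ = x * (y * h) := by rw [h2, mul_assoc]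
      exact mul_left_cancel h3
    obtain ⟨x, hx, hxK⟩ := Set.not_subset.mp hcon
    obtain ⟨y, hy, hy1⟩ := exists_ne_one hK
    have hx1 : x ≠ 1 := by rintro rfl; exact hxK K.one_mem
    -- every nonidentity element has the same centralizer as y
    have h4 : ∀ u ∈ N, u ≠ 1 → ∀ h ∈ stabilizer G a, h * x = x * h → h * u = u * h := by
      intro u hu hu1 h hh hhx
      by_cases huK : u ∈ K
      · exact h1 x hx hxK u huK h hh hhx
      · have h5 := h1 x hx hxK y hy h hh hhx
        exact hsymm u hu hu1 y (hKN hy) hy1 (h1 u hu huK y hy) h hh h5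
    obtain ⟨u, hu, hu1, hu2⟩ := hnotall
    apply hu2
    intro h hh hhx0
    apply h4 u hu hu1 h hh
    exact hsymm x hx hx1 x0 hx0 hx01 (h4 x0 hx0 hx01) h hh hhx0
  -- N is abelian
  have hconj : ∀ x ∈ N, x ≠ 1 → ∀ n ∈ N, ∀ h ∈ stabilizer G a, h * x = x * h →
      h * (n * x * n⁻¹) = (n * x * n⁻¹) * h := by
    intro x hx hx1 n hn h hh hhx
    refine key N a k hNt hNr hk (B := {y | ∃ m ∈ N, y = m * x * m⁻¹}) ?_ ?_ ?_ ?_ (x := x) (y := n * x * n⁻¹)
      ⟨1, N.one_mem, by simp⟩ ⟨n, hn, rfl⟩ hh hhx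
    · rintro _ ⟨m, hm, rfl⟩
      exact N.mul_mem (N.mul_mem hm hx) (N.inv_mem hm)
    · rintro ⟨m, hm, h3⟩
      apply hx1
      have h4 : m * x = m := by
        calc m * x = (m * x * m⁻¹) * m := by group
          _ = m := by rw [← h3, one_mul]
      exact mul_eq_left.mp h4
    · have h3 : Nat.card ({y | ∃ m ∈ N, y = m * x * m⁻¹} : Set G) = Nat.card (orbit (ConjAct N) (⟨x, hx⟩ : N)) := by
        apply Nat.card_congr
        symm
        refine Equiv.ofBijective (fun y => ⟨((y : N) : G), ?_⟩) ⟨?_, ?_⟩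
        · obtain ⟨g, hg⟩ := y.2
          refine ⟨(ConjAct.ofConjAct g : N), (ConjAct.ofConjAct g).2, ?_⟩
          rw [← hg]
          simp [ConjAct.smul_def]
        · intro u v huv
          apply Subtype.ext; apply Subtype.ext
          simpa using huv
        · rintro ⟨_, m, hm, rfl⟩
          refine ⟨⟨ConjAct.toConjAct (⟨m, hm⟩ : N) • (⟨x, hx⟩ : N), ⟨_, rfl⟩⟩, ?_⟩
          apply Subtype.ext
          simp [ConjAct.smul_def]
      rw [h3]
      have h4 := Nat.card_congr (MulAction.orbitProdStabilizerEquivGroup (ConjAct N) (⟨x, hx⟩ : N))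
      rw [Nat.card_prod] at h4
      have h5 : Nat.card (ConjAct N) = Nat.card N := rfl
      rw [← h5, ← h4]
      exact Dvd.intro _ rfl
    · rintro g hg _ ⟨m, hm, rfl⟩ ⟨u, hu, hu'⟩ _ ⟨w, hw, rfl⟩
      refine ⟨(g * w * g⁻¹) * (g * m * g⁻¹)⁻¹ * u, ?_, ?_⟩
      · exact N.mul_mem (N.mul_mem (hN.conj_mem w hw g) (N.inv_mem (hN.conj_mem m hm g))) hu
      · calc g * (w * x * w⁻¹) * g⁻¹ = (g * w * g⁻¹) * (g * m * g⁻¹)⁻¹ * (g * (m * x * m⁻¹) * g⁻¹) * (g * m * g⁻¹) * (g * w * g⁻¹)⁻¹ := by group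
          _ = (g * w * g⁻¹) * (g * m * g⁻¹)⁻¹ * (u * x * u⁻¹) * (g * m * g⁻¹) * (g * w * g⁻¹)⁻¹ := by rw [hu']
          _ = (g * w * g⁻¹) * (g * m * g⁻¹)⁻¹ * u * x * ((g * w * g⁻¹) * (g * m * g⁻¹)⁻¹ * u)⁻¹ := by group
  have hne_comm : ∀ x ∈ N, x ≠ 1 → ∀ y ∈ N, y ≠ 1 →
      ¬ (∀ h ∈ stabilizer G a, h * x = x * h → h * y = y * h) → x * y = y * x := by
    intro x hx hx1 y hy hy1 hxy
    by_contra hcon
    have hw1 : x * y * x⁻¹ * y⁻¹ ≠ 1 := by
      intro h
      apply hcon
      rwa [mul_inv_eq_one, mul_inv_eq_iff_eq_mul] at h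
    have hwN : x * y * x⁻¹ * y⁻¹ ∈ N := N.mul_mem (N.mul_mem (N.mul_mem hx hy) (N.inv_mem hx)) (N.inv_mem hy)
    have h1 : ∀ h ∈ stabilizer G a, h * x = x * h → h * (x * y * x⁻¹ * y⁻¹) = (x * y * x⁻¹ * y⁻¹) * h := by
      intro h hh hhx
      have hc : Commute h x := hhx
      have hc2 : Commute h (y * x * y⁻¹) := hconj x hx hx1 y hy h hh hhx
      have hc3 : Commute h (y * x * y⁻¹)⁻¹ := hc2.inv_right
      have h4 : x * y * x⁻¹ * y⁻¹ = x * (y * x * y⁻¹)⁻¹ := by group
      rw [h4]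
      exact hc.mul_right hc3
    have h2 : ∀ h ∈ stabilizer G a, h * y = y * h → h * (x * y * x⁻¹ * y⁻¹) = (x * y * x⁻¹ * y⁻¹) * h := by
      intro h hh hhy
      have hc : Commute h y := hhy
      have hc2 : Commute h (x * y * x⁻¹) := hconj y hy hy1 x hx h hh hhy
      have h4 : x * y * x⁻¹ * y⁻¹ = (x * y * x⁻¹) * y⁻¹ := by group
      rw [h4]
      exact hc2.mul_right hc.inv_right
    apply hxy
    intro h hh hhx
    exact hsymm y hy hy1 _ hwN hw1 h2 h hh (h1 h hh hhx)
  have habel : ∀ u ∈ N, ∀ v ∈ N, u * v = v * u := by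
    intro u hu v hv
    by_cases hu1 : u = 1
    · rw [hu1]; simp
    by_cases hv1 : v = 1
    · rw [hv1]; simp
    by_cases huv : ∀ h ∈ stabilizer G a, h * u = u * h → h * v = v * h
    swap
    · exact hne_comm u hu hu1 v hv hv1 huv
    -- there is w with C(w) ≠ C(u)
    have hw : ∃ w ∈ N, w ≠ 1 ∧ ¬ (∀ h ∈ stabilizer G a, h * u = u * h → h * w = w * h) := by
      by_contra hcon
      push Not at hcon
      obtain ⟨y, hy, hy1, hy2⟩ := hnotall
      apply hy2
      intro h hh hhx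
      apply hcon y hy hy1 h hh
      exact hsymm u hu hu1 x0 hx0 hx01 (hcon x0 hx0 hx01) h hh hhx
    obtain ⟨w, hw, hw1, hw2⟩ := hw
    have h1 : u * w = w * u := hne_comm u hu hu1 w hw hw1 hw2
    have hwv1 : w * v ≠ 1 := by
      intro h
      apply hw2
      intro g hg hgu
      have h3 : Commute g v := huv g hg hgu
      have h4 : w = v⁻¹ := eq_inv_of_mul_eq_one_left h
      rw [h4]
      exact h3.inv_right
    have h2 : u * (w * v) = (w * v) * u := by
      apply hne_comm u hu hu1 (w * v) (N.mul_mem hw hv) hwv1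
      intro hcon
      apply hw2
      intro g hg hgu
      have h3 : Commute g v := huv g hg hgu
      have h4 : Commute g (w * v) := hcon g hg hgu
      have h5 : Commute g ((w * v) * v⁻¹) := h4.mul_right h3.inv_right
      rw [mul_inv_cancel_right] at h5
      exact h5
    have h3 : w * (u * v) = w * (v * u) := by
      calc w * (u * v) = u * (w * v) := by rw [← mul_assoc, ← h1, mul_assoc]
        _ = w * (v * u) := by rw [h2, mul_assoc]
    exact mul_left_cancel h3
  constructor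
  · -- exponent
    have hNcard : Nat.card N ≠ 1 := by
      intro h
      have h1 := (Subgroup.card_eq_one).mp h
      rw [h1, Subgroup.mem_bot] at hx0
      exact hx01 hx0
    obtain ⟨p, hp, hpd⟩ := Nat.exists_prime_and_dvd hNcard
    refine ⟨p, hp, ⟨⟨fun x y => Subtype.ext (habel x x.2 y y.2)⟩⟩, ?_⟩
    let K : Subgroup G :=
      { carrier := {x | x ∈ N ∧ x ^ p = 1}
        mul_mem' := fun {x y} hx hy => ⟨N.mul_mem hx.1 hy.1, by
          have hc : Commute x y := habel x hx.1 y hy.1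
          rw [hc.mul_pow, hx.2, hy.2, one_mul]⟩
        one_mem' := ⟨N.one_mem, one_pow _⟩
        inv_mem' := fun {x} hx => ⟨N.inv_mem hx.1, by rw [inv_pow, hx.2, inv_one]⟩ }
    have hK : N ≤ K := by
      apply hmin K (fun x hx => hx.1)
      · have := Fact.mk hp
        obtain ⟨x, hx⟩ := exists_prime_orderOf_dvd_card' (G := N) p hpd
        intro hcon
        have h1 : (x : G) ∈ K := by
          refine ⟨x.2, ?_⟩
          rw [← Subgroup.orderOf_coe] at hx
          rw [← hx]; exact pow_orderOf_eq_one _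
        rw [hcon, Subgroup.mem_bot] at h1
        have h2 : x = 1 := Subtype.ext h1
        rw [h2, orderOf_one] at hx
        exact hp.one_lt.ne hx
      · intro h _ x hx
        refine ⟨hN.conj_mem x hx.1 h, ?_⟩
        rw [conj_pow, hx.2, mul_one, mul_inv_cancel]
    intro x hx
    exact (hK hx).2
  · intro M hM hM1
    have h1 : N ⊓ M = ⊥ ∨ N ≤ N ⊓ M := by
      by_cases h : N ⊓ M = ⊥
      · left; exact h
      · right
        apply hmin _ inf_le_left h
        intro g _ x hx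
        exact ⟨hN.conj_mem x hx.1 g, hM.conj_mem x hx.2 g⟩
    rcases h1 with h1 | h1
    swap
    · exact h1.trans inf_le_right
    exfalso
    apply hM1
    rw [Subgroup.eq_bot_iff_forall]
    intro m hm
    obtain ⟨n, hn, h, hh, hmn⟩ := hdecomp m
    have hcm : ∀ x ∈ N, m * x = x * m := by
      intro x hx
      have h2 : m * x * m⁻¹ * x⁻¹ ∈ N ⊓ M := by
        refine ⟨N.mul_mem (hN.conj_mem x hx m) (N.inv_mem hx), ?_⟩
        have h3 : m * x * m⁻¹ * x⁻¹ = m * (x * m⁻¹ * x⁻¹) := by group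
        rw [h3]
        exact M.mul_mem hm (hM.conj_mem _ (M.inv_mem hm) x)
      rw [h1, Subgroup.mem_bot, mul_inv_eq_one, mul_inv_eq_iff_eq_mul] at h2
      exact h2
    have hch : h = 1 := by
      apply hcomm1 h hh
      intro x hx
      have h2 : h = n⁻¹ * m := by rw [hmn]; group
      have hc1 : Commute n⁻¹ x := Commute.inv_left (habel n hn x hx)
      have hc2 : Commute m x := hcm x hx
      rw [h2]
      exact hc1.mul_left hc2
    have h3 : m ∈ N ⊓ M := ⟨by rw [hmn, hch, mul_one]; exact hn, hm⟩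
    rw [h1, Subgroup.mem_bot] at h3
    exact h3

end main
end Cfsg.Agent.H20.HT2
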