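import Mathlib
set_option autoImplicit false

/-! half-transitive actions: blocks of size prime to the orbit length -/
namespace Cfsg.Agent.H20.HalfTr
open MulAction

theorem dvd_of_const {H X : Type*} [Group H] [Finite H] [MulAction H X] [Finite X] (A : Set X)
    (m : ℕ) (hinv : ∀ h : H, ∀ x ∈ A, h • x ∈ A)
    (hm : ∀ x ∈ A, Nat.card (MulAction.orbit H x) = m) : m ∣ Nat.card A := by
  classical
  let _ : MulAction H A :=
    { smul := fun h x => ⟨h • (x : X), hinv h x x.2⟩
      one_smul := fun x => Subtype.ext (one_smul H (x : X))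
      mul_smul := fun g h x => Subtype.ext (mul_smul g h (x : X)) }
  have hcoe : ∀ (h : H) (x : A), ((h • x : A) : X) = h • (x : X) := fun h x => rfl
  have : Fintype H := Fintype.ofFinite H
  have : Fintype X := Fintype.ofFinite X
  have : Finite (orbitRel.Quotient H A) := Quotient.finite _
  have key : ∀ x : A, Nat.card (MulAction.orbit H x) = m := by
    intro x
    rw [← hm x x.2]
    apply Nat.card_congr
    refine Equiv.ofBijective (fun y => ⟨((y : A) : X), ?_⟩) ⟨?_, ?_⟩
    · obtain ⟨h, hh⟩ := y.2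
      exact ⟨h, by rw [← hh]; exact (hcoe h x).symm⟩
    · intro y z hyz
      apply Subtype.ext; apply Subtype.ext
      simpa using hyz
    · rintro ⟨y, h, rfl⟩
      exact ⟨⟨h • x, h, rfl⟩, rfl⟩
  have e := MulAction.selfEquivSigmaOrbits H A
  rw [Nat.card_congr e]
  have : Fintype (orbitRel.Quotient H A) := Fintype.ofFinite _
  have : ∀ ω : orbitRel.Quotient H A, Finite (MulAction.orbit H (Quotient.out ω)) := fun ω => inferInstance
  rw [Nat.card_sigma]
  apply Finset.dvd_sum
  intro i _
  rw [key]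

theorem block_stab {H X : Type*} [Group H] [Finite H] [MulAction H X] [Finite X] (A : Set X)
    (k d : ℕ) (hd : ∀ x ∈ A, Nat.card (stabilizer H x) = d) (hkd : Nat.card H = k * d)
    (hA : ∀ h : H, ∀ x ∈ A, h • x ∈ A → ∀ y ∈ A, h • y ∈ A)
    (hcop : Nat.Coprime k (Nat.card A)) {x y : X} (hx : x ∈ A) (hy : y ∈ A) :
    stabilizer H x = stabilizer H y := by
  classical
  let M : Subgroup H :=
    { carrier := {h | ∀ y ∈ A, h • y ∈ A}
      mul_mem' := fun {a b} ha hb y hy => by rw [mul_smul]; exact ha _ (hb y hy)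
      one_mem' := fun y hy => by rw [one_smul]; exact hy
      inv_mem' := fun {a} ha y hy => by
        have h1 : a • x ∈ A := ha x hx
        exact hA a⁻¹ (a • x) h1 (by rw [inv_smul_smul]; exact hx) y hy }
  have hM : ∀ h : H, h ∈ M ↔ ∀ y ∈ A, h • y ∈ A := fun h => Iff.rfl
  have hst : ∀ z ∈ A, stabilizer H z ≤ M := by
    intro z hz h hh
    exact hA h z hz (by rw [mem_stabilizer_iff.mp hh]; exact hz)
  have hdpos : 0 < d := by rw [← hd x hx]; exact Nat.card_pos
  have hcst : ∀ z ∈ A, Nat.card (stabilizer M z) = d := by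
    intro z hz
    rw [← hd z hz]
    apply Nat.card_congr
    refine Equiv.ofBijective (fun h => ⟨((h : M) : H), ?_⟩) ⟨?_, ?_⟩
    · have := h.2
      rw [mem_stabilizer_iff] at this ⊢
      exact this
    · intro a b hab
      apply Subtype.ext; apply Subtype.ext
      simpa using hab
    · rintro ⟨h, hh⟩
      exact ⟨⟨⟨h, hst z hz hh⟩, by rw [mem_stabilizer_iff] at hh ⊢; exact hh⟩, rfl⟩
  have hdM : d ∣ Nat.card M := by
    rw [← hcst x hx]; exact Subgroup.card_subgroup_dvd_card _
  obtain ⟨m, hm⟩ := hdM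
  have horb : ∀ z ∈ A, Nat.card (MulAction.orbit M z) = m := by
    intro z hz
    have h1 := Nat.card_congr (MulAction.orbitProdStabilizerEquivGroup M z)
    rw [Nat.card_prod, hcst z hz, hm, mul_comm d m] at h1
    exact Nat.eq_of_mul_eq_mul_right hdpos h1
  have h1 : m ∣ Nat.card A := dvd_of_const (H := M) A m (fun h z hz => h.2 z hz) horb
  have h2 : m ∣ k := by
    have h3 : Nat.card M ∣ Nat.card H := Subgroup.card_subgroup_dvd_card _
    rw [hm, hkd, mul_comm k d] at h3
    exact Nat.dvd_of_mul_dvd_mul_left hdpos h3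
  have h3 : m = 1 := Nat.eq_one_of_dvd_coprimes hcop h2 h1
  rw [h3, mul_one] at hm
  have h4 : ∀ z ∈ A, stabilizer H z = M := by
    intro z hz
    apply Subgroup.eq_of_le_of_card_ge (hst z hz)
    rw [hd z hz, hm]
  rw [h4 x hx, h4 y hy]

end Cfsg.Agent.H20.HalfTr
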