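import Mathlib
set_option autoImplicit false

/-! normal abelian subgroups of transitive linear groups span a field -/
namespace Cfsg.Agent.H20.HomF

variable {q : ℕ} [Fact q.Prime] {V : Type*} [AddCommGroup V] [Module (ZMod q) V] [Finite V]
  {G : Type*} [Group G] [Finite G] (ρ : G →* (V ≃ₗ[ZMod q] V))

/-- the action as a map to the endomorphism ring -/
def R : G →* Module.End (ZMod q) V := LinearEquiv.automorphismGroup.toLinearMapMonoidHom.comp ρ

theorem R_apply (g : G) (v : V) : R ρ g v = ρ g v := rfl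

theorem R_mul_inv (g : G) : R ρ g * R ρ g⁻¹ = 1 := by rw [← map_mul, mul_inv_cancel, map_one]
theorem R_inv_mul (g : G) : R ρ g⁻¹ * R ρ g = 1 := by rw [← map_mul, inv_mul_cancel, map_one]

/-- the enveloping algebra -/
def E (A : Subgroup G) : Subalgebra (ZMod q) (Module.End (ZMod q) V) := Algebra.adjoin (ZMod q) (R ρ '' A)

variable {A : Subgroup G}

theorem R_mem {a : G} (ha : a ∈ A) : R ρ a ∈ E ρ A := Algebra.subset_adjoin ⟨a, ha, rfl⟩

theorem comm_of (D : Module.End (ZMod q) V) (hD : ∀ a ∈ A, D * R ρ a = R ρ a * D) {x : Module.End (ZMod q) V}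
    (hx : x ∈ E ρ A) : D * x = x * D := by
  induction hx using Algebra.adjoin_induction with
  | mem x hx =>
    obtain ⟨a, ha, rfl⟩ := hx
    exact hD a ha
  | algebraMap r => exact (Algebra.commutes r D).symm
  | add x y _ _ h1 h2 => rw [mul_add, add_mul, h1, h2]
  | mul x y _ _ h1 h2 => rw [← mul_assoc, h1, mul_assoc, h2, mul_assoc]

theorem E_comm (hA : ∀ a ∈ A, ∀ b ∈ A, a * b = b * a) {x y : Module.End (ZMod q) V} (hx : x ∈ E ρ A)
    (hy : y ∈ E ρ A) : x * y = y * x := by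
  refine comm_of ρ x ?_ hy
  intro a ha
  refine (comm_of ρ (R ρ a) ?_ hx).symm
  intro b hb
  rw [← map_mul, hA a ha b hb, map_mul]

theorem conj_mem (hn : ∀ g : G, ∀ a ∈ A, g * a * g⁻¹ ∈ A) (g : G) {x : Module.End (ZMod q) V} (hx : x ∈ E ρ A) :
    R ρ g * x * R ρ g⁻¹ ∈ E ρ A := by
  induction hx using Algebra.adjoin_induction with
  | mem x hx =>
    obtain ⟨a, ha, rfl⟩ := hx
    rw [← map_mul, ← map_mul]
    exact R_mem ρ (hn g a ha)
  | algebraMap r =>
    rw [← Algebra.commutes r (R ρ g), mul_assoc, R_mul_inv, mul_one]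
    exact Subalgebra.algebraMap_mem _ r
  | add x y _ _ h1 h2 =>
    rw [mul_add, add_mul]; exact add_mem h1 h2
  | mul x y _ _ h1 h2 =>
    have : R ρ g * (x * y) * R ρ g⁻¹ = (R ρ g * x * R ρ g⁻¹) * (R ρ g * y * R ρ g⁻¹) := by
      calc R ρ g * (x * y) * R ρ g⁻¹ = R ρ g * x * 1 * y * R ρ g⁻¹ := by simp only [mul_assoc, one_mul]
        _ = R ρ g * x * (R ρ g⁻¹ * R ρ g) * y * R ρ g⁻¹ := by rw [R_inv_mul]
        _ = _ := by simp only [mul_assoc]
    rw [this]; exact mul_mem h1 h2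

/-- annihilators -/
def ann (A : Subgroup G) (v : V) : Set (Module.End (ZMod q) V) := {x | x ∈ E ρ A ∧ x v = 0}

instance : Finite (Module.End (ZMod q) V) := Finite.of_injective (fun f : Module.End (ZMod q) V => (f : V → V))
  (fun f g h => LinearMap.ext (fun v => congrFun h v))

theorem card_ann_le (hn : ∀ g : G, ∀ a ∈ A, g * a * g⁻¹ ∈ A) (g : G) (v : V) :
    Nat.card (ann ρ A v) ≤ Nat.card (ann ρ A (ρ g v)) := by
  apply Nat.card_le_card_of_injective (fun x : ann ρ A v => (⟨R ρ g * x * R ρ g⁻¹, conj_mem ρ hn g x.2.1, by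
    change R ρ g (x.1 (R ρ g⁻¹ (ρ g v))) = 0
    have h1 : R ρ g⁻¹ (ρ g v) = v := by
      change (R ρ g⁻¹ * R ρ g) v = v
      rw [R_inv_mul]; rfl
    rw [h1, x.2.2, map_zero]⟩ : ann ρ A (ρ g v)))
  intro x y h
  have h1 : R ρ g * x.1 * R ρ g⁻¹ = R ρ g * y.1 * R ρ g⁻¹ := congrArg Subtype.val h
  apply Subtype.ext
  calc x.1 = (R ρ g⁻¹ * R ρ g) * x.1 * (R ρ g⁻¹ * R ρ g) := by rw [R_inv_mul, one_mul, mul_one]
    _ = R ρ g⁻¹ * (R ρ g * x.1 * R ρ g⁻¹) * R ρ g := by simp only [mul_assoc]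
    _ = R ρ g⁻¹ * (R ρ g * y.1 * R ρ g⁻¹) * R ρ g := by rw [h1]
    _ = (R ρ g⁻¹ * R ρ g) * y.1 * (R ρ g⁻¹ * R ρ g) := by simp only [mul_assoc]
    _ = y.1 := by rw [R_inv_mul, one_mul, mul_one]

variable (hA : ∀ a ∈ A, ∀ b ∈ A, a * b = b * a) (hn : ∀ g : G, ∀ a ∈ A, g * a * g⁻¹ ∈ A)
  (htrans : ∀ v w : V, v ≠ 0 → w ≠ 0 → ∃ g : G, ρ g v = w)

include hn htrans in
theorem card_ann {v w : V} (hv : v ≠ 0) (hw : w ≠ 0) : Nat.card (ann ρ A v) = Nat.card (ann ρ A w) := by
  obtain ⟨g, hg⟩ := htrans v w hv hw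
  obtain ⟨h, hh⟩ := htrans w v hw hv
  have h1 := card_ann_le ρ hn g v
  have h2 := card_ann_le ρ hn h w
  rw [hg] at h1
  rw [hh] at h2
  exact le_antisymm h1 h2

include hn htrans in
theorem ann_eq_of_subset {v w : V} (hv : v ≠ 0) (hw : w ≠ 0) (h : ann ρ A v ⊆ ann ρ A w) :
    ann ρ A v = ann ρ A w := by
  apply Set.eq_of_subset_of_ncard_le h
  rw [← Nat.card_coe_set_eq, ← Nat.card_coe_set_eq, card_ann ρ hn htrans hv hw]

include hA hn htrans in
theorem ann_eq {v w : V} (hv : v ≠ 0) (hw : w ≠ 0) : ann ρ A v = ann ρ A w := by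
  by_cases h : ∃ x ∈ E ρ A, ∃ y ∈ E ρ A, x v = y w ∧ x v ≠ 0
  · obtain ⟨x, hx, y, hy, h1, h2⟩ := h
    have e1 : ann ρ A v = ann ρ A (x v) := by
      apply ann_eq_of_subset ρ hn htrans hv h2
      rintro i ⟨hi, hiv⟩
      refine ⟨hi, ?_⟩
      have : i (x v) = x (i v) := by
        change (i * x) v = (x * i) v
        rw [E_comm ρ hA hi hx]
      rw [this, hiv, map_zero]
    have e2 : ann ρ A w = ann ρ A (y w) := by
      apply ann_eq_of_subset ρ hn htrans hw (by rw [← h1]; exact h2)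
      rintro i ⟨hi, hiv⟩
      refine ⟨hi, ?_⟩
      have : i (y w) = y (i w) := by
        change (i * y) w = (y * i) w
        rw [E_comm ρ hA hi hy]
      rw [this, hiv, map_zero]
    rw [e1, e2, h1]
  · push Not at h
    have hvw : v + w ≠ 0 := by
      intro h1
      have h2 := h 1 (one_mem _) (-1) (neg_mem (one_mem _)) (by
        change v = -w
        exact eq_neg_of_add_eq_zero_left h1)
      exact hv h2
    have key : ∀ i, i ∈ ann ρ A (v + w) → i v = 0 := by
      rintro i ⟨hi, hi2⟩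
      rw [map_add] at hi2
      exact h i hi (-i) (neg_mem hi) (by
        change i v = -(i w)
        exact eq_neg_of_add_eq_zero_left hi2)
    have e1 : ann ρ A (v + w) = ann ρ A v := by
      apply ann_eq_of_subset ρ hn htrans hvw hv
      intro i hi
      exact ⟨hi.1, key i hi⟩
    have e2 : ann ρ A (v + w) = ann ρ A w := by
      apply ann_eq_of_subset ρ hn htrans hvw hw
      intro i hi
      refine ⟨hi.1, ?_⟩
      have := hi.2
      rw [map_add, key i hi, zero_add] at this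
      exact this
    rw [← e1, e2]

include hA hn htrans in
theorem inj_of_ne_zero {x : Module.End (ZMod q) V} (hx : x ∈ E ρ A) (hx0 : x ≠ 0) {v : V} (hv : v ≠ 0) : x v ≠ 0 := by
  intro h
  apply hx0
  apply LinearMap.ext
  intro w
  by_cases hw : w = 0
  · rw [hw, map_zero, map_zero]
  · have h1 : x ∈ ann ρ A v := ⟨hx, h⟩
    rw [ann_eq ρ hA hn htrans hv hw] at h1
    exact h1.2

theorem isField_of {K : Type*} [CommRing K] [Finite K] [Nontrivial K]
    (h : ∀ x y : K, x * y = 0 → x = 0 ∨ y = 0) : IsField K := by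
  have hnz : NoZeroDivisors K := ⟨fun {x y} => h x y⟩
  have hdom : IsDomain K := NoZeroDivisors.to_isDomain K
  exact Finite.isField_of_domain K

include hA hn htrans in
/-- the field -/
theorem exists_field [Nontrivial V] : ∃ (F : Type) (_ : Field F) (_ : Fintype F) (_ : CharP F q)
    (θ : F →+* Module.End (ZMod q) V), ∀ x, x ∈ E ρ A ↔ ∃ a : F, θ a = x := by
  classical
  have hcomm : ∀ a ∈ (R ρ '' A), ∀ b ∈ (R ρ '' A), a * b = b * a := by
    rintro _ ⟨a, ha, rfl⟩ _ ⟨b, hb, rfl⟩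
    rw [← map_mul, hA a ha b hb, map_mul]
  letI cr : CommRing (E ρ A) := Algebra.adjoinCommRingOfComm (ZMod q) hcomm
  obtain ⟨v0, hv0⟩ := exists_ne (0 : V)
  have hnt : Nontrivial (E ρ A) := by
    refine ⟨⟨0, 1, fun h => hv0 ?_⟩⟩
    have h1 : (0 : Module.End (ZMod q) V) = 1 := congrArg Subtype.val h
    have := congrArg (fun f : Module.End (ZMod q) V => f v0) h1
    exact this.symm
  have hfin : Finite (E ρ A) := Subtype.finite
  have hfield : IsField (E ρ A) := by
    apply isField_of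
    intro x y h
    by_contra hcon
    push Not at hcon
    have hy0 : (y : Module.End (ZMod q) V) ≠ 0 := fun h' => hcon.2 (Subtype.ext h')
    have hx0 : (x : Module.End (ZMod q) V) ≠ 0 := fun h' => hcon.1 (Subtype.ext h')
    have h1 : (x : Module.End (ZMod q) V) * y = 0 := congrArg Subtype.val h
    have h2 := congrArg (fun f : Module.End (ZMod q) V => f v0) h1
    exact inj_of_ne_zero ρ hA hn htrans x.2 hx0 (inj_of_ne_zero ρ hA hn htrans y.2 hy0 hv0) h2
  letI : Field (E ρ A) := hfield.toField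
  letI : Fintype (E ρ A) := Fintype.ofFinite _
  have hq0 : (q : E ρ A) = 0 := by
    apply Subtype.ext
    have h1 : ((q : E ρ A) : Module.End (ZMod q) V) = (q : Module.End (ZMod q) V) := by
      exact map_natCast (E ρ A).val q
    rw [h1]
    apply LinearMap.ext
    intro v
    have h2 : (q : Module.End (ZMod q) V) v = (q : ZMod q) • v := by
      rw [Nat.cast_smul_eq_nsmul]
      exact Module.End.natCast_apply q v
    rw [h2, CharP.cast_eq_zero, zero_smul]; rfl
  have hchar : CharP (E ρ A) q := (CharP.charP_iff_prime_eq_zero (Fact.out : q.Prime)).mpr hq0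
  obtain ⟨n, -, hn'⟩ := FiniteField.card (E ρ A) q
  letI : Fintype (GaloisField q n) := Fintype.ofFinite _
  have hcard : Fintype.card (GaloisField q n) = Fintype.card (E ρ A) := by
    rw [hn', ← Nat.card_eq_fintype_card, GaloisField.card q n n.pos.ne']
  let f := FiniteField.ringEquivOfCardEq hcard
  refine ⟨GaloisField q n, inferInstance, inferInstance, inferInstance,
    ((E ρ A).val : E ρ A →+* Module.End (ZMod q) V).comp f.toRingHom, ?_⟩
  intro x
  constructor
  · intro hx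
    refine ⟨f.symm ⟨x, hx⟩, ?_⟩
    change ((f (f.symm ⟨x, hx⟩) : E ρ A) : Module.End (ZMod q) V) = x
    rw [RingEquiv.apply_symm_apply]
  · rintro ⟨a, rfl⟩
    exact (f a).2

end Cfsg.Agent.H20.HomF
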