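import Cfsg.Agent.H20_HomF
set_option autoImplicit false

/-! consequences of the field structure -/
namespace Cfsg.Agent.H20.HomF

variable {q : ℕ} [Fact q.Prime] {V : Type*} [AddCommGroup V] [Module (ZMod q) V] [Finite V] [Nontrivial V]
  {G : Type*} [Group G] [Finite G] (ρ : G →* (V ≃ₗ[ZMod q] V)) (hρ : Function.Injective ρ)
  {A : Subgroup G} {F : Type} [Field F] [Fintype F] [CharP F q]
  (θ : F →+* Module.End (ZMod q) V) (hθ : ∀ x, x ∈ E ρ A ↔ ∃ a : F, θ a = x)

theorem θ_inj : Function.Injective θ := θ.injective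

include hρ in
theorem R_inj : Function.Injective (R ρ) := by
  intro a b h
  apply hρ
  apply LinearEquiv.ext
  intro v
  exact congrArg (fun f : Module.End (ZMod q) V => f v) h

include hθ in
theorem exists_s (hn : ∀ g : G, ∀ a ∈ A, g * a * g⁻¹ ∈ A) (g : G) (a : F) :
    ∃ b : F, R ρ g * θ a * R ρ g⁻¹ = θ b := by
  obtain ⟨b, hb⟩ := (hθ _).mp (conj_mem ρ hn g ((hθ (θ a)).mpr ⟨a, rfl⟩))
  exact ⟨b, hb.symm⟩

include hθ in
theorem exists_sigma (hn : ∀ g : G, ∀ a ∈ A, g * a * g⁻¹ ∈ A) :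
    ∃ S : G →* (F ≃+* F), ∀ g a, R ρ g * θ a * R ρ g⁻¹ = θ (S g a) := by
  choose s hs using exists_s ρ θ hθ hn
  have hinj := θ_inj θ
  have h1 : ∀ a, s 1 a = a := by
    intro a; apply hinj; rw [← hs]; simp
  have hmul : ∀ g h a, s (g * h) a = s g (s h a) := by
    intro g h a
    apply hinj
    rw [← hs, ← hs, ← hs, mul_inv_rev, map_mul, map_mul]
    simp only [mul_assoc]
  have hadd : ∀ g a b, s g (a + b) = s g a + s g b := by
    intro g a b
    apply hinj
    rw [← hs, map_add, map_add, ← hs, ← hs, mul_add, add_mul]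
  have hmul' : ∀ g a b, s g (a * b) = s g a * s g b := by
    intro g a b
    apply hinj
    rw [← hs, map_mul, map_mul, ← hs, ← hs]
    calc R ρ g * (θ a * θ b) * R ρ g⁻¹ = R ρ g * θ a * 1 * θ b * R ρ g⁻¹ := by
          simp only [mul_assoc, one_mul]
      _ = R ρ g * θ a * (R ρ g⁻¹ * R ρ g) * θ b * R ρ g⁻¹ := by rw [R_inv_mul]
      _ = _ := by simp only [mul_assoc]
  let S : G →* (F ≃+* F) :=
    { toFun := fun g =>
        { toFun := s g
          invFun := s g⁻¹
          left_inv := fun a => by rw [← hmul, inv_mul_cancel, h1]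
          right_inv := fun a => by rw [← hmul, mul_inv_cancel, h1]
          map_add' := hadd g
          map_mul' := hmul' g }
      map_one' := by ext a; exact h1 a
      map_mul' := fun g h => by ext a; exact hmul g h a }
  exact ⟨S, fun g a => hs g a⟩

include hρ hθ in
theorem ker_sigma {S : G →* (F ≃+* F)} (hS : ∀ g a, R ρ g * θ a * R ρ g⁻¹ = θ (S g a)) (g : G) :
    S g = 1 ↔ ∀ a ∈ A, g * a = a * g := by
  have key : ∀ x : Module.End (ZMod q) V, R ρ g * x * R ρ g⁻¹ = x ↔ R ρ g * x = x * R ρ g := by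
    intro x
    constructor
    · intro h
      calc R ρ g * x = R ρ g * x * (R ρ g⁻¹ * R ρ g) := by rw [R_inv_mul, mul_one]
        _ = (R ρ g * x * R ρ g⁻¹) * R ρ g := by simp only [mul_assoc]
        _ = _ := by rw [h]
    · intro h
      rw [h, mul_assoc, R_mul_inv, mul_one]
  constructor
  · intro h a ha
    apply R_inj ρ hρ
    rw [map_mul, map_mul]
    obtain ⟨b, hb⟩ := (hθ _).mp (R_mem ρ ha)
    rw [← hb, ← key, hS, h]; rfl
  · intro h
    ext a
    apply θ_inj θ
    rw [← hS]
    change _ = θ a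
    rw [key]
    apply comm_of ρ (A := A)
    · intro a ha
      rw [← map_mul, h a ha, map_mul]
    · exact (hθ _).mpr ⟨a, rfl⟩

theorem card_aut (n : ℕ) (hn : Fintype.card F = q ^ n) : Nat.card (F ≃+* F) = n := by
  letI : Algebra (ZMod q) F := ZMod.algebra F q
  have e : (F ≃+* F) ≃ (F ≃ₐ[ZMod q] F) :=
    { toFun := fun f => AlgEquiv.ofRingEquiv (f := f) (fun r => by
        have : (f : F →+* F).comp (algebraMap (ZMod q) F) = algebraMap (ZMod q) F := Subsingleton.elim _ _
        exact congrArg (fun g : ZMod q →+* F => g r) this)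
      invFun := fun f => f.toRingEquiv
      left_inv := fun f => by ext; rfl
      right_inv := fun f => by ext; rfl }
  rw [Nat.card_congr e, IsGalois.card_aut_eq_finrank]
  have h := Module.card_eq_pow_finrank (K := ZMod q) (V := F)
  rw [hn, ZMod.card] at h
  exact (Nat.pow_right_injective (Fact.out : q.Prime).two_le h).symm

include hρ hθ in
theorem card_A_dvd : Nat.card A ∣ Fintype.card F - 1 := by
  classical
  have hex : ∀ a : A, ∃ b : F, θ b = R ρ a := fun a => (hθ _).mp (R_mem ρ a.2)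
  choose f hf using hex
  have hinj := θ_inj θ
  have h1 : f 1 = 1 := by apply hinj; rw [hf, map_one]; simp
  have hm : ∀ a b, f (a * b) = f a * f b := by
    intro a b; apply hinj; rw [hf, map_mul, hf, hf]; simp
  let φ : A →* F := { toFun := f, map_one' := h1, map_mul' := hm }
  have hφ : Function.Injective φ := by
    intro a b h
    have h2 : f a = f b := h
    apply Subtype.ext
    apply R_inj ρ hρ
    rw [← hf, ← hf, h2]
  let ψ : A →* Fˣ := φ.toHomUnits
  have hψ : Function.Injective ψ := by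
    intro a b h
    apply hφ
    exact congrArg Units.val h
  have h3 := Subgroup.card_dvd_of_injective ψ hψ
  rwa [Nat.card_eq_fintype_card (α := Fˣ), Fintype.card_units] at h3

include θ in
theorem card_V : ∃ m, Nat.card V = Fintype.card F ^ m ∧ 0 < m := by
  letI : Module F V := Module.compHom V θ
  refine ⟨Module.finrank F V, ?_, ?_⟩
  · rw [Module.natCard_eq_pow_finrank (K := F) (V := V), Nat.card_eq_fintype_card]
  · have : Module.Finite F V := Module.Finite.of_finite
    exact Module.finrank_pos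

theorem surj_of_card (h : Nat.card V = Fintype.card F) {v0 : V} (hv0 : v0 ≠ 0) :
    Function.Bijective (fun a : F => θ a v0) := by
  have hinj : Function.Injective (fun a : F => θ a v0) := by
    intro a b hab
    by_contra hne
    have h1 : θ (a - b) v0 = 0 := by
      rw [map_sub]; change θ a v0 - θ b v0 = 0
      exact sub_eq_zero.mpr hab
    have h2 : a - b ≠ 0 := sub_ne_zero.mpr hne
    apply hv0
    have h3 : θ ((a - b)⁻¹) (θ (a - b) v0) = v0 := by
      change (θ ((a - b)⁻¹) * θ (a - b)) v0 = v0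
      rw [← map_mul, inv_mul_cancel₀ h2, map_one]; rfl
    rw [← h3, h1, map_zero]
  refine (Nat.bijective_iff_injective_and_card _).mpr ⟨hinj, ?_⟩
  rw [h, Nat.card_eq_fintype_card]

include hρ hθ in
/-- if `V` is one-dimensional, the centralizer of `A` is commutative -/
theorem comm_of_card (h : Nat.card V = Fintype.card F) {g k : G} (hg : ∀ a ∈ A, g * a = a * g)
    (hk : ∀ a ∈ A, k * a = a * k) : g * k = k * g := by
  obtain ⟨v0, hv0⟩ := exists_ne (0 : V)
  have hb := surj_of_card θ h hv0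
  have hrep : ∀ g : G, (∀ a ∈ A, g * a = a * g) → ∃ b : F, R ρ g = θ b := by
    intro g hg
    obtain ⟨b, hb1⟩ := hb.2 (R ρ g v0)
    refine ⟨b, ?_⟩
    apply LinearMap.ext
    intro v
    obtain ⟨a, rfl⟩ := hb.2 v
    have h1 : R ρ g * θ a = θ a * R ρ g := by
      apply comm_of ρ (A := A)
      · intro a ha
        rw [← map_mul, hg a ha, map_mul]
      · exact (hθ _).mpr ⟨a, rfl⟩
    change (R ρ g * θ a) v0 = θ b (θ a v0)
    rw [h1]
    change θ a (R ρ g v0) = θ b (θ a v0)
    rw [← hb1]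
    change (θ a * θ b) v0 = (θ b * θ a) v0
    rw [← map_mul, ← map_mul, mul_comm]
  obtain ⟨b, hb1⟩ := hrep g hg
  obtain ⟨c, hc1⟩ := hrep k hk
  apply R_inj ρ hρ
  rw [map_mul, map_mul, hb1, hc1, ← map_mul, ← map_mul, mul_comm]

include hθ in
theorem semilinear (hn : ∀ g : G, ∀ a ∈ A, g * a * g⁻¹ ∈ A) (h : Nat.card V = Fintype.card F) :
    ∃ (e : V ≃+ F), ∀ g : G, ∃ (a : F) (σ : F ≃+* F), ∀ v : V, e (ρ g v) = a * σ (e v) := by
  obtain ⟨v0, hv0⟩ := exists_ne (0 : V)
  have hb := surj_of_card θ h hv0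
  obtain ⟨S, hS⟩ := exists_sigma ρ θ hθ hn
  let f : F ≃+ V := AddEquiv.ofBijective
    ({ toFun := fun a => θ a v0, map_zero' := by simp, map_add' := fun a b => by rw [map_add]; rfl } : F →+ V) hb
  have hf : ∀ a, f a = θ a v0 := fun a => rfl
  refine ⟨f.symm, ?_⟩
  intro g
  refine ⟨f.symm (ρ g v0), S g, ?_⟩
  intro v
  rw [AddEquiv.symm_apply_eq, hf, mul_comm, map_mul]
  change ρ g v = θ (S g (f.symm v)) (θ (f.symm (ρ g v0)) v0)
  rw [← hf (f.symm (ρ g v0)), AddEquiv.apply_symm_apply, ← hS]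
  change ρ g v = R ρ g (θ (f.symm v) (R ρ g⁻¹ (ρ g v0)))
  have h1 : R ρ g⁻¹ (ρ g v0) = v0 := by
    change (R ρ g⁻¹ * R ρ g) v0 = v0
    rw [R_inv_mul]; rfl
  rw [h1, ← hf, AddEquiv.apply_symm_apply]; rfl

end Cfsg.Agent.H20.HomF
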