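import Cfsg.Agent.H20_CG2
import Cfsg.Agent.H20_L33Data
import Cfsg.Agent.H16_AutL3
import Cfsg.Agent.H5_GL
import Cfsg.Agent.H5_SL
set_option autoImplicit false

/-! `SL_3(3)`: the transvections -/
namespace Cfsg.Agent.H20.L33
open Matrix Cfsg.Agent.H16.AutL Cfsg.Agent.H16.AutG Module GrAut

section Gen
variable {F : Type*} [Field F] {ι : Type*} [Fintype ι] [DecidableEq ι]

theorem exists_dot (φ : ι → F) (hφ : φ ≠ 0) : ∃ y : ι → F, φ ⬝ᵥ y = 1 := by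
  obtain ⟨y, hy⟩ := exists_dot_ne hφ
  exact ⟨y, by rw [dotProduct_comm]; exact hy⟩

theorem tv_ne_one {v φ : ι → F} (hv : v ≠ 0) (hφ : φ ≠ 0) (h : φ ⬝ᵥ v = 0) : tv v φ ≠ 1 := by
  intro e
  obtain ⟨y, hy⟩ := exists_dot φ hφ
  have h1 := tv_mulVec h y
  rw [e, Matrix.SpecialLinearGroup.coe_one, one_mulVec, hy, one_smul] at h1
  exact hv (by simpa using h1.symm)

theorem tv_eq {v w φ ψ : ι → F} (hv : v ≠ 0) (hw : w ≠ 0) (hφ : φ ≠ 0) (h : φ ⬝ᵥ v = 0)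
    (h' : ψ ⬝ᵥ w = 0) (e : tv v φ = tv w ψ) : ∃ c : F, c ≠ 0 ∧ v = c • w ∧ ψ = c • φ := by
  obtain ⟨y, hy⟩ := exists_dot φ hφ
  have h1 : ∀ x, (φ ⬝ᵥ x) • v = (ψ ⬝ᵥ x) • w := by
    intro x
    have h2 := tv_mulVec h x
    rw [e, tv_mulVec h'] at h2
    exact (add_left_cancel h2).symm
  have h2 := h1 y
  rw [hy, one_smul] at h2
  refine ⟨ψ ⬝ᵥ y, ?_, h2, ?_⟩
  · intro h3
    rw [h3, zero_smul] at h2
    exact hv h2
  · have h3 : ∀ x, (ψ ⬝ᵥ x) = (ψ ⬝ᵥ y) * (φ ⬝ᵥ x) := by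
      intro x
      have h4 := h1 x
      rw [h2, smul_smul, ← sub_eq_zero, ← sub_smul, smul_eq_zero] at h4
      rcases h4 with h4 | h4
      · rw [← sub_eq_zero.mp h4]; ring
      · exact absurd h4 hw
    funext i
    have h4 := h3 (Pi.single i 1)
    rw [dotProduct_single, dotProduct_single, mul_one, mul_one] at h4
    rw [Pi.smul_apply, smul_eq_mul, h4]

theorem commute_iff {v w φ ψ : ι → F} (hv : v ≠ 0) (hw : w ≠ 0) (hφ : φ ≠ 0) (hψ : ψ ≠ 0)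
    (h : φ ⬝ᵥ v = 0) (h' : ψ ⬝ᵥ w = 0) :
    tv v φ * tv w ψ = tv w ψ * tv v φ ↔ φ ⬝ᵥ w = 0 ∧ ψ ⬝ᵥ v = 0 := by
  constructor
  · intro e
    have h1 : tv v φ * tv w ψ * (tv v φ)⁻¹ = tv w ψ := by rw [e, mul_assoc, mul_inv_cancel, mul_one]
    have hn : φ ⬝ᵥ (-v) = 0 := by rw [dotProduct_neg, h, neg_zero]
    rw [conj_tv, tv_inv h, tv_mulVec h, vecMul_tv hn] at h1
    have h3 : (ψ + (ψ ⬝ᵥ -v) • φ) ⬝ᵥ (w + (φ ⬝ᵥ w) • v) = 0 := by
      simp only [add_dotProduct, dotProduct_add, smul_dotProduct, dotProduct_smul, h, h', smul_eq_mul,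
        dotProduct_neg]
      ring
    obtain ⟨c, hc, h4, h5⟩ := tv_eq hw (by
      intro h6
      rw [h6, tv_zero_left] at h1
      exact tv_ne_one hw hψ h' h1.symm) hψ h' h3 h1.symm
    have h6 : φ ⬝ᵥ w = 0 := by
      have h7 := congrArg (fun z => φ ⬝ᵥ z) h4
      simp only [dotProduct_smul, dotProduct_add, h, smul_eq_mul, mul_zero, add_zero] at h7
      by_contra h8
      have h9 : c = 1 := by
        have : φ ⬝ᵥ w * (1 - c) = 0 := by linear_combination h7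
        rcases mul_eq_zero.mp this with h | h
        · exact absurd h h8
        · exact (sub_eq_zero.mp h).symm
      rw [h9, one_smul] at h4
      have h10 : (φ ⬝ᵥ w) • v = 0 := by simpa using h4.symm
      rcases smul_eq_zero.mp h10 with h | h
      · exact h8 h
      · exact hv h
    refine ⟨h6, ?_⟩
    have h7 := congrArg (fun z => z ⬝ᵥ v) h5
    simp only [smul_dotProduct, add_dotProduct, h, smul_eq_mul, mul_zero, add_zero] at h7
    by_contra h8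
    have h9 : c = 1 := by
      have : ψ ⬝ᵥ v * (1 - c) = 0 := by linear_combination h7
      rcases mul_eq_zero.mp this with h | h
      · exact absurd h h8
      · exact (sub_eq_zero.mp h).symm
    rw [h9, one_smul] at h5
    have h10 : (ψ ⬝ᵥ -v) • φ = 0 := by simpa using h5
    rcases smul_eq_zero.mp h10 with h | h
    · rw [dotProduct_neg, neg_eq_zero] at h
      exact h8 h
    · exact hφ h
  · rintro ⟨h1, h2⟩
    refine sl_ext fun x => ?_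
    rw [Matrix.SpecialLinearGroup.coe_mul, Matrix.SpecialLinearGroup.coe_mul, ← mulVec_mulVec,
      ← mulVec_mulVec, tv_mulVec h, tv_mulVec h', tv_mulVec h, tv_mulVec h']
    simp only [dotProduct_add, dotProduct_smul, h1, h2, smul_zero, add_zero]
    abel

variable [Finite F] {p : ℕ} [Fact p.Prime] [CharP F p]

theorem sylow_fix (h2 : 2 ≤ Fintype.card ι) (P : Sylow p (SpecialLinearGroup ι F)) :
    ∃ v φ : ι → F, v ≠ 0 ∧ φ ≠ 0 ∧ φ ⬝ᵥ v = 0 ∧ (∀ g ∈ P, (g : Matrix ι ι F) *ᵥ v = v) ∧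
      (∀ g ∈ P, φ ᵥ* ((g⁻¹ : SpecialLinearGroup ι F) : Matrix ι ι F) = φ) ∧ Ta φ ≤ P := by
  have hne : Nonempty ι := Fintype.card_pos_iff.mp (by omega)
  obtain ⟨φ, -, hφ0, hφ⟩ := exists_fixed (p := p) (ρ1.comp (iS : MulAut (SpecialLinearGroup ι F)).toMonoidHom)
    (P : Subgroup (SpecialLinearGroup ι F)) P.isPGroup' ⊤ (fun _ _ _ _ => trivial) top_ne_bot
  have hφ1 : ∀ g ∈ P, φ ᵥ* ((g⁻¹ : SpecialLinearGroup ι F) : Matrix ι ι F) = φ := fun g hg => by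
    rw [← ρ1_iS]; exact hφ g hg
  have hφ2 : ∀ g ∈ P, φ ᵥ* (g : Matrix ι ι F) = φ := fun g hg => vecMul_of_inv (hφ1 g hg)
  obtain ⟨v, hvk, hv0, hv⟩ := exists_fixed (p := p) ρ1
    (P : Subgroup (SpecialLinearGroup ι F)) P.isPGroup' (kerφ F ι φ) (fun g hg w hw => by
      rw [mem_kerφ] at hw ⊢
      change φ ⬝ᵥ ((g : Matrix ι ι F) *ᵥ w) = 0
      rw [dotProduct_mulVec, hφ2 g hg, hw]) (by
      intro h
      have h1 := finrank_kerφ hφ0
      rw [h, finrank_bot] at h1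
      omega)
  have hφv : φ ⬝ᵥ v = 0 := mem_kerφ.mp hvk
  refine ⟨v, φ, hv0, hφ0, hφv, hv, hφ1, ?_⟩
  refine le_sylow P _ (isPGroup_Ta φ) ?_
  rintro g hg _ ⟨w, hw, rfl⟩
  refine ⟨(g : Matrix ι ι F) *ᵥ w, ?_, ?_⟩
  · rw [dotProduct_mulVec, hφ2 g hg, hw]
  · rw [conj_tv, hφ1 g hg]

theorem card_centralizer_aut {G : Type*} [Group G] (α : MulAut G) (x : G) :
    Nat.card (Subgroup.centralizer ({α x} : Set G)) = Nat.card (Subgroup.centralizer ({x} : Set G)) := by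
  symm
  apply Nat.card_congr
  refine α.toEquiv.subtypeEquiv ?_
  intro y
  have h1 : y ∈ Subgroup.centralizer ({x} : Set G) ↔ x * y = y * x := by
    rw [Subgroup.mem_centralizer_iff]; simp
  have h2 : α.toEquiv y ∈ Subgroup.centralizer ({α x} : Set G) ↔ α x * α y = α y * α x := by
    rw [Subgroup.mem_centralizer_iff]; simp
  rw [h1, h2, ← map_mul, ← map_mul, α.injective.eq_iff]

omit [Finite F] in
theorem card_centralizer_tv {v φ v' φ' : ι → F} (hv : v ≠ 0) (hφ : φ ≠ 0) (h : φ ⬝ᵥ v = 0)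
    (hv' : v' ≠ 0) (hφ' : φ' ≠ 0) (h' : φ' ⬝ᵥ v' = 0) :
    Nat.card (Subgroup.centralizer ({tv v φ} : Set (SpecialLinearGroup ι F))) =
      Nat.card (Subgroup.centralizer ({tv v' φ'} : Set (SpecialLinearGroup ι F))) := by
  obtain ⟨g, hg, hgφ⟩ := exists_gl_pair hv hφ h hv' hφ' h'
  have h1 : cjS g (tv v φ) = tv v' φ' := by
    rw [cjS_tv, hg, ← hgφ, gl_vcancel']
  rw [← h1, card_centralizer_aut]

theorem sylow_dvd (h2 : 2 ≤ Fintype.card ι) {v φ : ι → F} (hv : v ≠ 0) (hφ : φ ≠ 0) (h : φ ⬝ᵥ v = 0)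
    (P : Sylow p (SpecialLinearGroup ι F)) :
    Nat.card P ∣ Nat.card (Subgroup.centralizer ({tv v φ} : Set (SpecialLinearGroup ι F))) := by
  obtain ⟨v', φ', hv', hφ', h', h3, h4, -⟩ := sylow_fix h2 P
  rw [card_centralizer_tv hv hφ h hv' hφ' h']
  apply Subgroup.card_dvd_of_le
  intro g hg
  rw [Subgroup.mem_centralizer_iff]
  intro x hx
  rw [Set.mem_singleton_iff] at hx
  rw [hx, eq_comm, ← mul_inv_eq_iff_eq_mul, conj_tv, h3 g hg, h4 g hg]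

/-- elements commuting with all `tv w φ` -/
theorem of_commute_Ta {g : SpecialLinearGroup ι F} {φ v : ι → F} (hφ : φ ≠ 0) (hv : v ≠ 0) (hφv : φ ⬝ᵥ v = 0)
    (hg : ∀ w, φ ⬝ᵥ w = 0 → g * tv w φ = tv w φ * g) :
    ∃ (a : F) (w : ι → F), a ≠ 0 ∧ φ ⬝ᵥ w = 0 ∧ ∀ x, (g : Matrix ι ι F) *ᵥ x = a • x + (φ ⬝ᵥ x) • w := by
  have h1 : ∀ w, w ≠ 0 → φ ⬝ᵥ w = 0 → ∃ c : F, c ≠ 0 ∧ w = c • ((g : Matrix ι ι F) *ᵥ w) ∧
      φ ᵥ* ((g⁻¹ : SpecialLinearGroup ι F) : Matrix ι ι F) = c • φ := by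
    intro w hw hφw
    have h2 : g * tv w φ * g⁻¹ = tv w φ := by rw [hg w hφw, mul_assoc, mul_inv_cancel, mul_one]
    rw [conj_tv] at h2
    have h3 : (φ ᵥ* ((g⁻¹ : SpecialLinearGroup ι F) : Matrix ι ι F)) ⬝ᵥ ((g : Matrix ι ι F) *ᵥ w) = 0 := by
      rw [dotProduct_mulVec, vecMul_vecMul, ← Matrix.SpecialLinearGroup.coe_mul, inv_mul_cancel,
        Matrix.SpecialLinearGroup.coe_one, vecMul_one, hφw]
    refine tv_eq hw ?_ hφ hφw h3 h2.symm
    intro h4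
    rw [h4, tv_zero_left] at h2
    exact tv_ne_one hw hφ hφw h2.symm
  obtain ⟨c, hc, -, h2⟩ := h1 v hv hφv
  have h3 : ∀ w, φ ⬝ᵥ w = 0 → (g : Matrix ι ι F) *ᵥ w = c⁻¹ • w := by
    intro w hφw
    by_cases hw : w = 0
    · rw [hw, mulVec_zero, smul_zero]
    · obtain ⟨d, hd, h4, h5⟩ := h1 w hw hφw
      have h6 : d = c := by
        rw [h2, ← sub_eq_zero, ← sub_smul, smul_eq_zero] at h5
        rcases h5 with h5 | h5
        · exact (sub_eq_zero.mp h5).symm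
        · exact absurd h5 hφ
      rw [h6] at h4
      conv_rhs => rw [h4]
      rw [smul_smul, inv_mul_cancel₀ hc, one_smul]
  have h4 : φ ᵥ* (g : Matrix ι ι F) = c⁻¹ • φ := by
    have h5 := congrArg (fun z => c⁻¹ • (z ᵥ* (g : Matrix ι ι F))) h2
    simp only [vecMul_vecMul, ← Matrix.SpecialLinearGroup.coe_mul, inv_mul_cancel,
      Matrix.SpecialLinearGroup.coe_one, vecMul_one] at h5
    rw [h5, smul_vecMul, smul_smul, inv_mul_cancel₀ hc, one_smul]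
  obtain ⟨y, hy⟩ := exists_dot φ hφ
  refine ⟨c⁻¹, (g : Matrix ι ι F) *ᵥ y - c⁻¹ • y, inv_ne_zero hc, ?_, ?_⟩
  · rw [dotProduct_sub, dotProduct_mulVec, h4, smul_dotProduct, dotProduct_smul, hy, sub_self]
  · intro x
    have h6 : x = (x - (φ ⬝ᵥ x) • y) + (φ ⬝ᵥ x) • y := by abel
    have h7 : φ ⬝ᵥ (x - (φ ⬝ᵥ x) • y) = 0 := by
      rw [dotProduct_sub, dotProduct_smul, hy, smul_eq_mul, mul_one, sub_self]
    conv_lhs => rw [h6, mulVec_add, h3 _ h7, mulVec_smul]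
    rw [smul_sub, smul_sub, smul_comm c⁻¹]
    abel

end Gen

end Cfsg.Agent.H20.L33
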