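import Cfsg.Agent.H20_L33
set_option autoImplicit false

/-! the model of `SL_3(3)` on 52 flags -/
namespace Cfsg.Agent.H20.L33
open Matrix Cfsg.Agent.H16.AutL Cfsg.Agent.H16.AutG Module GrAut

abbrev G0 : Type := Matrix.SpecialLinearGroup (Fin 3) (ZMod 3)

def UL : List (ZMod 3 × ZMod 3 × ZMod 3) := [(0, 0, 1), (0, 1, 0), (0, 1, 1), (0, 1, 2), (1, 0, 0), (1, 0, 1), (1, 0, 2), (1, 1, 0), (1, 1, 1), (1, 1, 2), (1, 2, 0), (1, 2, 1), (1, 2, 2)]
def FL : List (Fin 13 × Fin 13) := [(0, 1), (0, 4), (0, 7), (0, 10), (1, 0), (1, 4), (1, 5), (1, 6), (2, 3), (2, 4), (2, 9), (2, 11), (3, 2), (3, 4), (3, 8), (3, 12), (4, 0), (4, 1), (4, 2), (4, 3), (5, 1), (5, 6), (5, 9), (5, 12), (6, 1), (6, 5), (6, 8), (6, 11), (7, 0), (7, 10), (7, 11), (7, 12), (8, 3), (8, 6), (8, 8), (8, 10), (9, 2), (9, 5), (9, 9), (9, 10), (10, 0), (10, 7), (10, 8), (10, 9), (11, 2), (11, 6), (11, 7), (11, 11), (12, 3), (12, 5), (12, 7), (12, 12)]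

def ul (i : Fin 13) : ZMod 3 × ZMod 3 × ZMod 3 := UL.getD i (0, 0, 0)
def fl (i : Fin 52) : Fin 13 × Fin 13 := FL.getD i (0, 0)

def U (i : Fin 13) : Fin 3 → ZMod 3 := ![(ul i).1, (ul i).2.1, (ul i).2.2]

def dt (i j : Fin 13) : ZMod 3 := (ul i).1 * (ul j).1 + (ul i).2.1 * (ul j).2.1 + (ul i).2.2 * (ul j).2.2

theorem dt_eq (i j : Fin 13) : U i ⬝ᵥ U j = dt i j := by
  rw [dotProduct, Fin.sum_univ_three]; rfl

theorem c1 : ∀ a b c : ZMod 3, ¬ (a = 0 ∧ b = 0 ∧ c = 0) →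
    ∃ i : Fin 13, (a = (ul i).1 ∧ b = (ul i).2.1 ∧ c = (ul i).2.2) ∨
      (a = -(ul i).1 ∧ b = -(ul i).2.1 ∧ c = -(ul i).2.2) := by decide +kernel

theorem c2 : ∀ p l : Fin 13, dt l p = 0 → ∃ i : Fin 52, fl i = (p, l) := by decide +kernel

theorem c3 : ∀ i j : Fin 52, adj rows i j = decide (dt (fl i).2 (fl j).1 = 0 ∧ dt (fl j).2 (fl i).1 = 0) := by
  decide +kernel

theorem c4 : ∀ i j : Fin 52, (∀ k, adj rows i k = adj rows j k) → i = j := by decide +kernel

theorem c5 : ∀ i : Fin 52, dt (fl i).2 (fl i).1 = 0 := by decide +kernel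

theorem c6 : ∀ i : Fin 13, ul i ≠ (0, 0, 0) := by decide +kernel

theorem U_ne (i : Fin 13) : U i ≠ 0 := by
  intro h
  apply c6 i
  have h0 := congrFun h 0
  have h1 := congrFun h 1
  have h2 := congrFun h 2
  exact Prod.ext h0 (Prod.ext h1 h2)

theorem exists_U (v : Fin 3 → ZMod 3) (hv : v ≠ 0) : ∃ (i : Fin 13) (c : ZMod 3), c ≠ 0 ∧ v = c • U i := by
  have h : ¬ (v 0 = 0 ∧ v 1 = 0 ∧ v 2 = 0) := by
    rintro ⟨h0, h1, h2⟩
    apply hv
    funext i
    fin_cases i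
    · exact h0
    · exact h1
    · exact h2
  obtain ⟨i, hi⟩ := c1 _ _ _ h
  rcases hi with ⟨h0, h1, h2⟩ | ⟨h0, h1, h2⟩
  · refine ⟨i, 1, by decide, ?_⟩
    rw [one_smul]
    funext j
    fin_cases j
    · exact h0
    · exact h1
    · exact h2
  · refine ⟨i, -1, by decide, ?_⟩
    rw [neg_one_smul]
    funext j
    fin_cases j
    · exact h0
    · exact h1
    · exact h2

def T : Set G0 := {g | ∃ v φ : Fin 3 → ZMod 3, v ≠ 0 ∧ φ ≠ 0 ∧ φ ⬝ᵥ v = 0 ∧ g = tv v φ}

theorem exists_ix (g : G0) (hg : g ∈ T) : ∃ (i : Fin 52) (c : ZMod 3), c ≠ 0 ∧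
    g = tv (c • U (fl i).1) (U (fl i).2) := by
  obtain ⟨v, φ, hv, hφ, h, rfl⟩ := hg
  obtain ⟨p, c, hc, rfl⟩ := exists_U v hv
  obtain ⟨l, d, hd, rfl⟩ := exists_U φ hφ
  have h1 : dt l p = 0 := by
    rw [smul_dotProduct, dotProduct_smul, dt_eq, smul_eq_mul, smul_eq_mul] at h
    rcases mul_eq_zero.mp h with h | h
    · exact absurd h hd
    · rcases mul_eq_zero.mp h with h | h
      · exact absurd h hc
      · exact h
  obtain ⟨i, hi⟩ := c2 p l h1
  refine ⟨i, d * c, mul_ne_zero hd hc, ?_⟩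
  rw [hi, ← tv_smul, smul_smul]

theorem tv_mem (i : Fin 52) (c : ZMod 3) (hc : c ≠ 0) : tv (c • U (fl i).1) (U (fl i).2) ∈ T := by
  refine ⟨_, _, ?_, U_ne _, ?_, rfl⟩
  · intro h
    rcases smul_eq_zero.mp h with h | h
    · exact hc h
    · exact U_ne _ h
  · rw [dotProduct_smul, dt_eq, c5, smul_zero]

theorem comm_iff (i j : Fin 52) (c d : ZMod 3) (hc : c ≠ 0) (hd : d ≠ 0) :
    tv (c • U (fl i).1) (U (fl i).2) * tv (d • U (fl j).1) (U (fl j).2) =
      tv (d • U (fl j).1) (U (fl j).2) * tv (c • U (fl i).1) (U (fl i).2) ↔ adj rows i j = true := by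
  rw [commute_iff (smul_ne_zero hc (U_ne _)) (smul_ne_zero hd (U_ne _)) (U_ne _) (U_ne _)
    (by rw [dotProduct_smul, dt_eq, c5, smul_zero]) (by rw [dotProduct_smul, dt_eq, c5, smul_zero]), c3,
    decide_eq_true_iff, dotProduct_smul, dotProduct_smul, dt_eq, dt_eq, smul_eq_zero_iff_right hc,
    smul_eq_zero_iff_right hd]

open Classical in
noncomputable def ix (g : G0) : Fin 52 := if h : g ∈ T then (exists_ix g h).choose else 0

theorem ix_spec (g : G0) (h : g ∈ T) : ∃ c : ZMod 3, c ≠ 0 ∧ g = tv (c • U (fl (ix g)).1) (U (fl (ix g)).2) := by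
  have h1 : ix g = (exists_ix g h).choose := by rw [ix, dif_pos h]
  rw [h1]
  exact (exists_ix g h).choose_spec

theorem adj_iff (x : G0) (hx : x ∈ T) (y : G0) (hy : y ∈ T) :
    x * y = y * x ↔ adj rows (ix x) (ix y) = true := by
  obtain ⟨c, hc, h1⟩ := ix_spec x hx
  obtain ⟨d, hd, h2⟩ := ix_spec y hy
  have h3 := comm_iff (ix x) (ix y) c d hc hd
  rwa [← h1, ← h2] at h3

theorem ix_tv (i : Fin 52) (c : ZMod 3) (hc : c ≠ 0) : ix (tv (c • U (fl i).1) (U (fl i).2)) = i := by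
  apply c4
  intro k
  have hm := tv_mem i c hc
  obtain ⟨d, hd, h1⟩ := ix_spec _ hm
  rw [Bool.eq_iff_iff, ← comm_iff _ k d 1 hd one_ne_zero, ← h1, comm_iff i k c 1 hc one_ne_zero]

theorem card_G0 : Nat.card G0 = 5616 := by
  have h := H5.GL.card_SL (F := ZMod 3) (q := 3) (ZMod.card 3) 3 (by norm_num)
  rw [Fin.prod_univ_three] at h
  have h2 : (3 ^ 3 - 3 ^ ((0 : Fin 3) : ℕ)) * (3 ^ 3 - 3 ^ ((1 : Fin 3) : ℕ)) * (3 ^ 3 - 3 ^ ((2 : Fin 3) : ℕ)) = 11232 := by
    decide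
  rw [h2] at h
  have h3 : (3 - 1) * Nat.card G0 = 11232 := h
  omega

theorem closure_T : Subgroup.closure T = ⊤ := by
  rw [eq_top_iff, ← H5.SL.closure_transvections (F := ZMod 3) (ι := Fin 3), Subgroup.closure_le]
  rintro _ ⟨i, j, hij, a, rfl⟩
  by_cases ha : a = 0
  · rw [ha, Matrix.SpecialLinearGroup.transvection_coeff_zero]
    exact one_mem _
  · apply Subgroup.subset_closure
    have hd : (Pi.single j 1 : Fin 3 → ZMod 3) ⬝ᵥ (Pi.single i a) = 0 := by
      rw [single_dotProduct, Pi.single_eq_of_ne hij.symm, mul_zero]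
    refine ⟨Pi.single i a, Pi.single j 1, ?_, ?_, hd, ?_⟩
    · intro h
      have := congrFun h i
      rw [Pi.single_eq_same] at this
      exact ha this
    · intro h
      have := congrFun h j
      rw [Pi.single_eq_same] at this
      exact one_ne_zero this
    · apply sl_mat_ext
      rw [tv_coe hd, Matrix.SpecialLinearGroup.transvection_coe]
      congr 1
      ext k l
      rw [vecMulVec_apply, Matrix.single_apply]
      by_cases h1 : i = k
      · subst h1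
        by_cases h2 : j = l
        · subst h2; simp
        · rw [if_neg (fun h => h2 h.2), Pi.single_eq_of_ne (fun h => h2 h.symm), mul_zero]
      · rw [if_neg (fun h => h1 h.1), Pi.single_eq_of_ne (fun h => h1 h.symm), zero_mul]

theorem center_eq : Subgroup.center G0 = ⊥ := by
  have h := H5.GL.card_center_SL (F := ZMod 3) (q := 3) (ZMod.card 3) 3 (by norm_num)
  apply Subgroup.eq_bot_of_card_eq
  exact h.trans (by decide)

theorem hcen (g : G0) (hg : ∀ t ∈ T, g * t = t * g) : g = 1 := by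
  have h : g ∈ Subgroup.center G0 := by
    rw [← Subgroup.centralizer_univ, ← Subgroup.coe_top, ← closure_T, Subgroup.centralizer_closure]
    rw [Subgroup.mem_centralizer_iff]
    intro t ht
    exact (hg t ht).symm
  rw [center_eq] at h
  exact Subgroup.mem_bot.mp h

theorem one_notMem : (1 : G0) ∉ T := by
  rintro ⟨v, φ, hv, hφ, h, e⟩
  exact tv_ne_one hv hφ h e.symm

theorem card_sylow (P : Sylow 3 G0) : Nat.card P = 27 := by
  have h := P.card_eq_multiplicity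
  rw [card_G0, show (5616 : ℕ) = 3 ^ 3 * 208 by norm_num] at h
  rw [h, Nat.factorization_mul (by norm_num) (by norm_num), Finsupp.add_apply,
    Nat.Prime.factorization_pow Nat.prime_three, Finsupp.single_eq_same,
    Nat.factorization_eq_zero_of_not_dvd (by norm_num)]
  norm_num

theorem mem_iff (g : G0) (hg : g ≠ 1) : g ∈ T ↔ 27 ∣ Nat.card (Subgroup.centralizer ({g} : Set G0)) := by
  constructor
  · rintro ⟨v, φ, hv, hφ, h, rfl⟩
    have := sylow_dvd (p := 3) (by rw [Fintype.card_fin]; norm_num) hv hφ h (default : Sylow 3 G0)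
    rwa [card_sylow] at this
  · intro h
    have h27 : (3 ^ 3 : ℕ) ∣ Nat.card (Subgroup.centralizer ({g} : Set G0)) := h
    obtain ⟨Q, hQ⟩ := Sylow.exists_subgroup_card_pow_prime 3 h27
    let Q' : Subgroup G0 := Q.map (Subgroup.centralizer ({g} : Set G0)).subtype
    have hcQ : Nat.card Q' = 27 := by
      rw [Nat.card_congr (Q.equivMapOfInjective _ (Subgroup.subtype_injective _)).toEquiv.symm, hQ]
      norm_num
    have hQp : IsPGroup 3 Q' := IsPGroup.of_card (n := 3) (by rw [hcQ]; norm_num)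
    obtain ⟨P, hP⟩ := hQp.exists_le_sylow
    have hPQ : Q' = P := Subgroup.eq_of_le_of_card_ge hP (by
      have := card_sylow P
      rw [hcQ]; exact this.le)
    obtain ⟨v, φ, hv, hφ, hφv, h3, h4, h5⟩ := sylow_fix (p := 3) (by rw [Fintype.card_fin]; norm_num) P
    have hcomm : ∀ w, φ ⬝ᵥ w = 0 → g * tv w φ = tv w φ * g := by
      intro w hw
      have h6 : tv w φ ∈ (P : Subgroup G0) := h5 ⟨w, hw, rfl⟩
      rw [← hPQ] at h6
      obtain ⟨q, hq, e⟩ := h6
      rw [← e]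
      exact (Subgroup.mem_centralizer_iff.mp q.2) g rfl
    obtain ⟨a, w, ha, hw, h7⟩ := of_commute_Ta hφ hv hφv hcomm
    -- determinant
    have hwa : φ ⬝ᵥ (a⁻¹ • w) = 0 := by rw [dotProduct_smul, hw, smul_zero]
    have h8 : (g : Matrix (Fin 3) (Fin 3) (ZMod 3)) = a • (tv (a⁻¹ • w) φ : Matrix (Fin 3) (Fin 3) (ZMod 3)) := by
      apply Matrix.mulVec_injective
      funext x
      rw [h7, smul_mulVec, tv_mulVec hwa, smul_add, smul_comm a, smul_smul a, mul_inv_cancel₀ ha, one_smul]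
    have h9 := g.2
    have h10 : (a • (tv (a⁻¹ • w) φ : Matrix (Fin 3) (Fin 3) (ZMod 3))).det = 1 := by rw [← h8]; exact h9
    rw [det_smul, Matrix.SpecialLinearGroup.det_coe, Fintype.card_fin, mul_one] at h10
    have h11 : a = 1 := by
      have : a ^ 3 = a := ZMod.pow_card a
      rw [this] at h10
      exact h10
    have h12 : g = tv w φ := by
      apply sl_mat_ext
      rw [h8, h11, inv_one, one_smul, one_smul]
    refine ⟨w, φ, ?_, hφ, hw, h12⟩
    rintro rfl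
    rw [tv_zero_left] at h12
    exact hg h12

/-- the model -/
noncomputable def model : CG.Model G0 52 rows where
  T := T
  m := 27
  ix := ix
  one_notMem := one_notMem
  mem_iff := mem_iff
  surj := fun i => ⟨_, tv_mem i 1 one_ne_zero, ix_tv i 1 one_ne_zero⟩
  adj_iff := adj_iff
  rows_inj := c4

theorem inv_mem' (x : G0) (hx : x ∈ T) : x⁻¹ ∈ T := by
  obtain ⟨v, φ, hv, hφ, h, rfl⟩ := hx
  rw [tv_inv h]
  exact ⟨-v, φ, neg_ne_zero.mpr hv, hφ, by rw [dotProduct_neg, h, neg_zero], rfl⟩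

theorem ix_inv (x : G0) (hx : x ∈ T) : ix x⁻¹ = ix x := by
  obtain ⟨c, hc, h1⟩ := ix_spec x hx
  have h2 : x⁻¹ = tv ((-c) • U (fl (ix x)).1) (U (fl (ix x)).2) := by
    conv_lhs => rw [h1]
    rw [tv_inv (by rw [dotProduct_smul, dt_eq, c5, smul_zero]), neg_smul]
  conv_lhs => rw [h2]
  exact ix_tv _ _ (neg_ne_zero.mpr hc)

theorem c7 : ∀ c d : ZMod 3, c ≠ 0 → d ≠ 0 → d = c ∨ d = -c := by decide

theorem ix_eq (x : G0) (hx : x ∈ T) (y : G0) (hy : y ∈ T) (h : ix x = ix y) : y = x ∨ y = x⁻¹ := by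
  obtain ⟨c, hc, h1⟩ := ix_spec x hx
  obtain ⟨d, hd, h2⟩ := ix_spec y hy
  rw [← h] at h2
  rcases c7 c d hc hd with h3 | h3
  · left; rw [h2, h3, ← h1]
  · right
    have h4 : x⁻¹ = tv ((-c) • U (fl (ix x)).1) (U (fl (ix x)).2) := by
      conv_lhs => rw [h1]
      rw [tv_inv (by rw [dotProduct_smul, dt_eq, c5, smul_zero]), neg_smul]
    rw [h2, h3, ← h4]

theorem main {H : Type*} [Group H] [Finite H] (f : {h : H // h ≠ 1} ≃ {g : G0 // g ≠ 1})
    (hf : ∀ x y : {h : H // h ≠ 1}, (x : H) * y = y * x ↔ (f x : G0) * (f y) = (f y) * (f x)) :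
    Nonempty (H ≃* G0) := by
  obtain ⟨F, hF1, hF⟩ := CG.exists_total f hf
  obtain ⟨ρ, h1, h2⟩ := CG.exists_hom model F hF1 hF
  obtain ⟨ρ', h1', h2'⟩ := CG.exists_hom model (Equiv.refl G0) rfl (fun x y => Iff.rfl)
  have hconst : ∀ x ∈ model.T, ∀ y ∈ model.T, Nat.card (Subgroup.centralizer ({x} : Set G0)) =
      Nat.card (Subgroup.centralizer ({y} : Set G0)) := by
    rintro _ ⟨v, φ, hv, hφ, h, rfl⟩ _ ⟨v', φ', hv', hφ', h', rfl⟩
    exact card_centralizer_tv hv hφ h hv' hφ' h'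
  have hi : Function.Injective ρ := CG.injective_of_pair model F hF1 hF hcen inv_mem' ix_inv ix_eq hconst
    (a := 3) (by norm_num) (by rfl) ρ h1
  have hi' : Function.Injective ρ' := CG.injective_of_pair model (Equiv.refl G0) rfl (fun x y => Iff.rfl)
    hcen inv_mem' ix_inv ix_eq hconst (a := 3) (by norm_num) (by rfl) ρ' h1'
  refine CG.equiv_of_card_two F ρ ρ' h2 h2' hi hi' ?_ T ?_ closure_T
  · rw [card_G0]
    have := card_le rows steps check_ok (CG.autG 52 rows) (fun σ hσ => hσ)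
    rw [prod_ok] at this
    exact this
  · rintro _ ⟨v, φ, hv, hφ, h, rfl⟩
    exact tv_pow_p h

/-- `PSL_3(3) ≃ SL_3(3)` -/
noncomputable def pslEquiv : Matrix.ProjectiveSpecialLinearGroup (Fin 3) (ZMod 3) ≃* G0 :=
  QuotientGroup.quotientBot.symm.trans (QuotientGroup.quotientMulEquivOfEq center_eq).symm |>.symm

end Cfsg.Agent.H20.L33
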