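import Mathlib
set_option autoImplicit false

/-! small linear algebra lemmas -/
namespace Cfsg.Agent.H20.Lin

theorem exists_equiv {K V ι : Type*} [Field K] [AddCommGroup V] [Module K V] [FiniteDimensional K V] [Finite ι]
    {v w : ι → V} (hv : LinearIndependent K v) (hw : LinearIndependent K w) :
    ∃ g : V ≃ₗ[K] V, ∀ i, g (v i) = w i := by
  obtain ⟨g, hg⟩ := Submodule.exists_linearEquiv_restrict_eq
    ((Module.Basis.span hv).equiv (Module.Basis.span hw) (Equiv.refl ι))
  refine ⟨g, fun i => ?_⟩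
  have h1 := hg ((Module.Basis.span hv) i)
  rw [Module.Basis.equiv_apply] at h1
  have h2 : (((Module.Basis.span hv) i : Submodule.span K (Set.range v)) : V) = v i := by
    rw [Module.Basis.span_apply]
  have h3 : (((Module.Basis.span hw) ((Equiv.refl ι) i) : Submodule.span K (Set.range w)) : V) = w i := by
    rw [Module.Basis.span_apply]; rfl
  rw [h2, h3] at h1
  exact h1.symm

theorem two_ne {p : ℕ} [Fact p.Prime] (hp : p ≠ 2) : (2 : ZMod p) ≠ 0 := by
  intro h2
  have h3 : ((2 : ℕ) : ZMod p) = 0 := by exact_mod_cast h2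
  rw [ZMod.natCast_eq_zero_iff] at h3
  exact hp ((Nat.prime_dvd_prime_iff_eq Fact.out Nat.prime_two).mp h3)

theorem affine_of_triples {p : ℕ} [Fact p.Prime] (hp : p ≠ 2) {V : Type*} [AddCommGroup V] [Module (ZMod p) V]
    (σ : Equiv.Perm V)
    (h : ∀ x y z : V, ∃ (A : V ≃ₗ[ZMod p] V) (b : V), σ x = A x + b ∧ σ y = A y + b ∧ σ z = A z + b) :
    ∃ (A : V ≃ₗ[ZMod p] V) (b : V), ∀ x, σ x = A x + b := by
  have h2 := two_ne hp
  have hsm : ∀ (c : ZMod p) (x : V), σ (c • x) - σ 0 = c • (σ x - σ 0) := by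
    intro c x
    obtain ⟨A, b, h1, h2, h3⟩ := h 0 x (c • x)
    rw [h1, h2, h3, map_zero, map_smul]
    simp
  have hmid : ∀ x y : V, (2 : ZMod p) • σ ((2 : ZMod p)⁻¹ • (x + y)) = σ x + σ y := by
    intro x y
    obtain ⟨A, b, h1, h3, h4⟩ := h x y ((2 : ZMod p)⁻¹ • (x + y))
    rw [h1, h3, h4, map_smul, smul_add, smul_smul, mul_inv_cancel₀ h2, one_smul, map_add, two_smul]
    abel
  let f : V →ₗ[ZMod p] V :=
    { toFun := fun x => σ x - σ 0
      map_add' := by
        intro x y
        have h5 : (x + y) = (2 : ZMod p) • ((2 : ZMod p)⁻¹ • (x + y)) := by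
          rw [smul_smul, mul_inv_cancel₀ h2, one_smul]
        have h6 : σ (x + y) - σ 0 = (2 : ZMod p) • (σ ((2 : ZMod p)⁻¹ • (x + y)) - σ 0) := by
          rw [← hsm, ← h5]
        rw [h6, smul_sub, hmid, two_smul]
        abel
      map_smul' := by
        intro c x
        exact hsm c x }
  have hf : Function.Bijective f := by
    constructor
    · intro x y hxy
      have h5 : σ x - σ 0 = σ y - σ 0 := hxy
      exact σ.injective (sub_left_injective h5)
    · intro y
      refine ⟨σ.symm (y + σ 0), ?_⟩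
      change σ (σ.symm (y + σ 0)) - σ 0 = y
      rw [Equiv.apply_symm_apply, add_sub_cancel_right]
  refine ⟨LinearEquiv.ofBijective f hf, σ 0, ?_⟩
  intro x
  change σ x = (σ x - σ 0) + σ 0
  rw [sub_add_cancel]

theorem exists_det {K V : Type*} [Field K] [AddCommGroup V] [Module K V] [FiniteDimensional K V]
    (W : Submodule K V) (hW : W ≠ ⊤) (c : K) (hc : c ≠ 0) :
    ∃ g : V ≃ₗ[K] V, (∀ w ∈ W, g w = w) ∧ LinearMap.det (g : V →ₗ[K] V) = c := by
  obtain ⟨u, hu⟩ : ∃ u, u ∉ W := by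
    by_contra h
    push Not at h
    exact hW (eq_top_iff.mpr (fun x _ => h x))
  obtain ⟨f, hf, hfW⟩ := Submodule.exists_le_ker_of_notMem hu
  have hfu : f ((f u)⁻¹ • u) = 1 := by
    rw [map_smul, smul_eq_mul, inv_mul_cancel₀ hf]
  have hun : IsUnit (1 + f ((c - 1) • ((f u)⁻¹ • u))) := by
    rw [map_smul, hfu, smul_eq_mul, mul_one, add_sub_cancel]
    exact hc.isUnit
  refine ⟨LinearEquiv.dilatransvection hun, ?_, ?_⟩
  · intro w hw
    rw [LinearEquiv.dilatransvection.apply]
    have : f w = 0 := hfW hw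
    rw [this, zero_smul, add_zero]
  · rw [LinearEquiv.dilatransvection.coe_toLinearMap, LinearMap.transvection.det, map_smul, hfu, smul_eq_mul, mul_one, add_sub_cancel]

end Cfsg.Agent.H20.Lin
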