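import Cfsg.Agent.H20_M11Data
set_option autoImplicit false

/-! checks for the model of `M11` on its 165 involutions -/
namespace Cfsg.Agent.H20.M11D
open GrAut Cfsg Cfsg.Agent.H7.Golay Cfsg.Agent.H7.Oct Cfsg.Agent.H7.M24 Cfsg.Agent.H14.M24Eng Cfsg.Agent.H14.M24Gen
open scoped Pointwise

/-! ### data checks -/

def X (i : ℕ) : List ℕ := XL.getD i []

def gl (a : ℕ) : List ℕ := [lT, lV, lU].getD a []

def cj (a b : List ℕ) : List ℕ := comp (comp a b) (invl a)

def pi_ (a i : ℕ) : ℕ := (pis.getD a []).getD i 0
def qi_ (a i : ℕ) : ℕ := (qis.getD a []).getD i 0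

def chk1 : Bool := (List.range 3).all fun a => (List.range 165).all fun i =>
  Nat.blt (pi_ a i) 165 && (Nat.blt (qi_ a i) 165 && (Nat.beq (pi_ a (qi_ a i)) i &&
    (Nat.beq (qi_ a (pi_ a i)) i && (cj (gl a) (X i) == X (pi_ a i)))))

def chk2 : Bool := (List.range 165).all fun k => Nat.beq k 0 ||
  (Nat.blt (par.getD k (0, 0)).1 3 && (Nat.blt (par.getD k (0, 0)).2 k &&
    Nat.beq (pi_ (par.getD k (0, 0)).1 (par.getD k (0, 0)).2) k))

def permMask (π : List ℕ) (N r : ℕ) : ℕ := maskOf (((List.range N).filter (fun j => r.testBit j)).map (fun j => π.getD j 0))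

def chk3 : Bool := (List.range 3).all fun a => (List.range 165).all fun i =>
  Nat.beq (permMask (pis.getD a []) 165 (row rows i)) (row rows (pi_ a i))

def chk4 : Bool := (List.range 165).all fun j =>
  ((row rows 0).testBit j == (comp (X 0) (X j) == comp (X j) (X 0)))

theorem chk1_ok : chk1 = true := by decide +kernel
theorem chk2_ok : chk2 = true := by decide +kernel
theorem chk3_ok : chk3 = true := by decide +kernel
theorem chk4_ok : chk4 = true := by decide +kernel

theorem rows_lt : rows.all (fun r => Nat.blt r (2 ^ 165)) = true := by decide +kernel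
theorem rows_nodup : rows.Nodup := by decide +kernel
theorem rows_len : rows.length = 165 := by decide +kernel

theorem isM24_v : isM24 lv = true := by decide +kernel
theorem isM24_b : isM24 lb = true := by decide +kernel

theorem v_fix : Nat.beq (lv.getD 0 0) 0 = true := by decide +kernel
theorem v_dod : Nat.beq (act lv sqM) sqM = true := by decide +kernel
theorem b_fix : Nat.beq (lb.getD 0 0) 0 = true := by decide +kernel
theorem b_dod : Nat.beq (act lb sqM) sqM = true := by decide +kernel
theorem v_eight : powl lv 8 = List.range 24 := by decide +kernel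
theorem b_two : comp lb lb = List.range 24 := by decide +kernel
theorem b_conj : cj lb lv = powl lv 3 := by decide +kernel
theorem v_four : powl lv 4 = X 0 := by decide +kernel
theorem T_prod : comp (comp (X 0) (X 7)) (X 8) = lT := by decide +kernel
theorem comm_b : (List.range 8).all (fun i => (Nat.beq i 0 || (Nat.beq i 4)) ||
  !(comp lb (powl lv i) == comp (powl lv i) lb)) = true := by decide +kernel
theorem comm_T : (List.range 11).all (fun i => Nat.beq i 0 ||
  !(comp (X 0) (powl lT i) == comp (powl lT i) (X 0))) = true := by decide +kernel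
theorem tree_ok : tree.check (invl lv) lv ((List.range 8).map (powl lv)) (cut dodMasks 0 1) = true := by
  decide +kernel

end Cfsg.Agent.H20.M11D
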