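import Cfsg.Agent.H20_CG2
import Cfsg.Agent.H20_M11Chk
import Cfsg.Agent.H20_Prim
set_option autoImplicit false

/-! the model of `M11` on its 165 involutions -/
namespace Cfsg.Agent.H20.M11D
open GrAut Cfsg Cfsg.Agent.H7.Golay Cfsg.Agent.H7.Oct Cfsg.Agent.H7.M24 Cfsg.Agent.H14.M24Eng Cfsg.Agent.H14.M24Gen
open scoped Pointwise

/-! ### extraction -/

theorem chk1' {a i : ℕ} (ha : a < 3) (hi : i < 165) : pi_ a i < 165 ∧ qi_ a i < 165 ∧ pi_ a (qi_ a i) = i ∧
    qi_ a (pi_ a i) = i ∧ cj (gl a) (X i) = X (pi_ a i) := by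
  have h := chk1_ok
  simp only [chk1, List.all_eq_true, List.mem_range, Bool.and_eq_true, beq_iff_eq] at h
  obtain ⟨h1, h2, h3, h4, h5⟩ := h a ha i hi
  exact ⟨Nat.le_of_ble_eq_true h1, Nat.le_of_ble_eq_true h2, Nat.eq_of_beq_eq_true h3, Nat.eq_of_beq_eq_true h4, h5⟩

theorem chk2' {k : ℕ} (hk : k < 165) (h0 : k ≠ 0) : (par.getD k (0, 0)).1 < 3 ∧ (par.getD k (0, 0)).2 < k ∧
    pi_ (par.getD k (0, 0)).1 (par.getD k (0, 0)).2 = k := by
  have h := chk2_ok
  simp only [chk2, List.all_eq_true, List.mem_range, Bool.and_eq_true, Bool.or_eq_true] at h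
  rcases h k hk with h1 | ⟨h1, h2, h3⟩
  · exact absurd (Nat.eq_of_beq_eq_true h1) h0
  · exact ⟨Nat.le_of_ble_eq_true h1, Nat.le_of_ble_eq_true h2, Nat.eq_of_beq_eq_true h3⟩

theorem chk3' {a i j : ℕ} (ha : a < 3) (hi : i < 165) (hj : j < 165) :
    (row rows (pi_ a i)).testBit (pi_ a j) = (row rows i).testBit j := by
  have h := chk3_ok
  simp only [chk3, List.all_eq_true, List.mem_range] at h
  have h1 := Nat.eq_of_beq_eq_true (h a ha i hi)
  rw [← h1, permMask, Bool.eq_iff_iff, testBit_maskOf, List.mem_map]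
  constructor
  · rintro ⟨j', hj', e⟩
    rw [List.mem_filter, List.mem_range] at hj'
    have h2 : j' = j := by
      rw [← (chk1' ha hj'.1).2.2.2.1, ← (chk1' ha hj).2.2.2.1]
      exact congrArg (qi_ a) e
    rw [← h2]; exact hj'.2
  · intro h2
    exact ⟨j, by rw [List.mem_filter, List.mem_range]; exact ⟨hj, h2⟩, rfl⟩

theorem chk4' {j : ℕ} (hj : j < 165) : ((row rows 0).testBit j = true ↔ comp (X 0) (X j) = comp (X j) (X 0)) := by
  have h := chk4_ok
  simp only [chk4, List.all_eq_true, List.mem_range] at h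
  have h1 := h j hj
  rw [beq_iff_eq] at h1
  rw [h1, beq_iff_eq]

theorem rows_inj (i j : Fin 165) (h : ∀ k, adj rows i k = adj rows j k) : i = j := by
  have h1 : row rows i = row rows j := by
    apply Nat.eq_of_testBit_eq
    intro k
    by_cases hk : k < 165
    · exact h ⟨k, hk⟩
    · have h2 : ∀ i : Fin 165, row rows i < 2 ^ 165 := by
        intro i
        have h3 := rows_lt
        rw [List.all_eq_true] at h3
        rw [row, List.getD_eq_getElem _ _ (by rw [rows_len]; exact i.2)]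
        exact Nat.le_of_ble_eq_true (h3 _ (List.getElem_mem _))
      rw [Nat.testBit_lt_two_pow ((h2 i).trans_le (Nat.pow_le_pow_right (by norm_num) (by omega))),
        Nat.testBit_lt_two_pow ((h2 j).trans_le (Nat.pow_le_pow_right (by norm_num) (by omega)))]
  rw [row, row, List.getD_eq_getElem _ _ (by rw [rows_len]; exact i.2),
    List.getD_eq_getElem _ _ (by rw [rows_len]; exact j.2)] at h1
  exact Fin.ext ((rows_nodup.getElem_inj_iff).mp h1)

/-! ### elements -/

noncomputable def ge (a : ℕ) : Equiv.Perm GolayPt := if a = 0 then eT else if a = 1 then eV else eU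

theorem rep_ge {a : ℕ} (ha : a < 3) : Rep (ge a) (gl a) := by
  interval_cases a
  · exact rep_T
  · exact rep_V
  · exact rep_U

theorem mem_ge (a : ℕ) : ge a ∈ Spor.M11 := by
  unfold ge
  split
  · exact T_mem11
  · split
    · exact V_mem11
    · exact U_mem11

noncomputable def ev : Equiv.Perm GolayPt := (exists_M24 isM24_v).choose
noncomputable def eb : Equiv.Perm GolayPt := (exists_M24 isM24_b).choose
theorem rep_v : Rep ev lv := (exists_M24 isM24_v).choose_spec.2
theorem rep_b : Rep eb lb := (exists_M24 isM24_b).choose_spec.2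
theorem mem_v : ev ∈ Spor.M11 := mem_M11.2 ⟨⟨(exists_M24 isM24_v).choose_spec.1, dod_of_rep rep_v v_dod⟩,
  fix_of_rep rep_v 0 (by norm_num) v_fix⟩
theorem mem_b : eb ∈ Spor.M11 := mem_M11.2 ⟨⟨(exists_M24 isM24_b).choose_spec.1, dod_of_rep rep_b b_dod⟩,
  fix_of_rep rep_b 0 (by norm_num) b_fix⟩

theorem ev_eight : ev ^ 8 = 1 := (rep_powl rep_v 8).unique (by rw [v_eight]; exact rep_one)
theorem eb_two : eb * eb = 1 := (rep_mul rep_b rep_b).unique (by rw [b_two]; exact rep_one)
theorem eb_conj : eb * ev * eb⁻¹ = ev ^ 3 := by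
  have h := rep_mul (rep_mul rep_b rep_v) (rep_inv rep_b)
  have h2 := rep_powl rep_v 3
  rw [← b_conj] at h2
  exact h.unique h2

/-- the involution -/
noncomputable def ez : Equiv.Perm GolayPt := ev ^ 4
theorem rep_z : Rep ez (X 0) := by
  have := rep_powl rep_v 4
  rwa [v_four] at this

theorem mem_z : ez ∈ Spor.M11 := pow_mem mem_v 4

theorem rep_cj {g x : Equiv.Perm GolayPt} {a l : List ℕ} (hg : Rep g a) (hx : Rep x l) : Rep (g * x * g⁻¹) (cj a l) :=
  rep_mul (rep_mul hg hx) (rep_inv hg)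

theorem exists_el (k : ℕ) (hk : k < 165) : ∃ x, Rep x (X k) ∧ ∃ h ∈ Spor.M11, x = h * ez * h⁻¹ := by
  induction k using Nat.strong_induction_on with
  | _ k ih =>
    by_cases h0 : k = 0
    · subst h0
      exact ⟨ez, rep_z, 1, one_mem _, by simp⟩
    · obtain ⟨h1, h2, h3⟩ := chk2' hk h0
      obtain ⟨x, hx, h, hh, e⟩ := ih _ h2 (h2.trans hk)
      refine ⟨ge (par.getD k (0, 0)).1 * x * (ge (par.getD k (0, 0)).1)⁻¹, ?_,
        ge (par.getD k (0, 0)).1 * h, mul_mem (mem_ge _) hh, by rw [e]; group⟩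
      have h4 := rep_cj (rep_ge h1) hx
      rwa [(chk1' h1 (h2.trans hk)).2.2.2.2, h3] at h4

noncomputable def el (i : Fin 165) : Equiv.Perm GolayPt := (exists_el i i.2).choose

theorem rep_el (i : Fin 165) : Rep (el i) (X i) := (exists_el i i.2).choose_spec.1
theorem el_conj (i : Fin 165) : ∃ h ∈ Spor.M11, el i = h * ez * h⁻¹ := (exists_el i i.2).choose_spec.2
theorem el_mem (i : Fin 165) : el i ∈ Spor.M11 := by
  obtain ⟨h, hh, e⟩ := el_conj i
  rw [e]
  exact mul_mem (mul_mem hh mem_z) (inv_mem hh)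
theorem el_zero : el 0 = ez := (rep_el 0).unique rep_z

theorem conj_el {a : ℕ} (ha : a < 3) (i : Fin 165) :
    ge a * el i * (ge a)⁻¹ = el ⟨pi_ a i, (chk1' ha i.2).1⟩ := by
  have h := rep_cj (rep_ge ha) (rep_el i)
  rw [(chk1' ha i.2).2.2.2.2] at h
  exact h.unique (rep_el ⟨pi_ a i, (chk1' ha i.2).1⟩)

theorem adj_zero (j : Fin 165) : adj rows 0 j = true ↔ el 0 * el j = el j * el 0 := by
  have h := chk4' j.2
  change (row rows 0).testBit j = true ↔ _
  rw [h]
  constructor
  · intro e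
    have h1 := rep_mul (rep_el 0) (rep_el j)
    have h2 := rep_mul (rep_el j) (rep_el 0)
    change Rep _ (comp (X 0) (X j)) at h1
    change Rep _ (comp (X j) (X 0)) at h2
    rw [← e] at h2
    exact h1.unique h2
  · intro e
    have h1 := rep_mul (rep_el 0) (rep_el j)
    have h2 := rep_mul (rep_el j) (rep_el 0)
    rw [← e] at h2
    exact rep_eq_list h1 h2

theorem adj_el' (k : ℕ) (hk : k < 165) : ∀ j : Fin 165, adj rows ⟨k, hk⟩ j = true ↔
    el ⟨k, hk⟩ * el j = el j * el ⟨k, hk⟩ := by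
  induction k using Nat.strong_induction_on with
  | _ k ih =>
    intro j
    by_cases h0 : k = 0
    · subst h0
      exact adj_zero j
    · obtain ⟨h1, h2, h3⟩ := chk2' hk h0
      set a := (par.getD k (0, 0)).1 with ha
      set m := (par.getD k (0, 0)).2 with hm
      have hq := (chk1' h1 j.2).2.1
      have hpq := (chk1' h1 j.2).2.2.1
      have h4 := ih m h2 (h2.trans hk) ⟨qi_ a j, hq⟩
      have e1 : el ⟨k, hk⟩ = ge a * el ⟨m, h2.trans hk⟩ * (ge a)⁻¹ := by
        rw [conj_el h1]; congr 1; exact Fin.ext h3.symm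
      have e2 : el j = ge a * el ⟨qi_ a j, hq⟩ * (ge a)⁻¹ := by
        rw [conj_el h1]; congr 1; exact Fin.ext hpq.symm
      have e3 : adj rows ⟨k, hk⟩ j = adj rows ⟨m, h2.trans hk⟩ ⟨qi_ a j, hq⟩ := by
        have h5 := chk3' (a := a) (i := m) (j := qi_ a j) h1 (h2.trans hk) hq
        rw [h3, hpq] at h5
        exact h5
      rw [e3, h4, e1, e2]
      constructor
      · intro h5
        calc ge a * el ⟨m, h2.trans hk⟩ * (ge a)⁻¹ * (ge a * el ⟨qi_ a j, hq⟩ * (ge a)⁻¹)
            = ge a * (el ⟨m, h2.trans hk⟩ * el ⟨qi_ a j, hq⟩) * (ge a)⁻¹ := by group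
          _ = _ := by rw [h5]; group
      · intro h5
        calc el ⟨m, h2.trans hk⟩ * el ⟨qi_ a j, hq⟩
            = (ge a)⁻¹ * (ge a * el ⟨m, h2.trans hk⟩ * (ge a)⁻¹ * (ge a * el ⟨qi_ a j, hq⟩ * (ge a)⁻¹)) * ge a := by
              group
          _ = _ := by rw [h5]; group

theorem adj_el (i j : Fin 165) : adj rows i j = true ↔ el i * el j = el j * el i := adj_el' i i.2 j

theorem el_inj {i j : Fin 165} (h : el i = el j) : i = j := by
  apply rows_inj
  intro k
  rw [Bool.eq_iff_iff, adj_el, adj_el, h]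

/-- the set is closed under conjugation -/
theorem closed (g : Equiv.Perm GolayPt) (hg : g ∈ Spor.M11) (i : Fin 165) : ∃ j, g * el i * g⁻¹ = el j := by
  let K : Subgroup (Equiv.Perm GolayPt) :=
    { carrier := {g | g ∈ Spor.M11 ∧ ∀ i, ∃ j, g * el i * g⁻¹ = el j}
      one_mem' := ⟨one_mem _, fun i => ⟨i, by simp⟩⟩
      mul_mem' := by
        rintro a b ⟨ha, ha'⟩ ⟨hb, hb'⟩
        refine ⟨mul_mem ha hb, fun i => ?_⟩
        obtain ⟨j, hj⟩ := hb' i
        obtain ⟨k, hk⟩ := ha' j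
        refine ⟨k, ?_⟩
        rw [← hk, ← hj]; group
      inv_mem' := by
        rintro a ⟨ha, ha'⟩
        refine ⟨inv_mem ha, ?_⟩
        choose φ hφ using ha'
        have hinj : Function.Injective φ := by
          intro i j hij
          apply el_inj
          have h1 : a * el i * a⁻¹ = a * el j * a⁻¹ := by rw [hφ, hφ, hij]
          exact mul_left_cancel (mul_right_cancel h1)
        intro i
        obtain ⟨j, hj⟩ := (Finite.injective_iff_surjective.mp hinj) i
        refine ⟨j, ?_⟩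
        rw [← hj, ← hφ]; group }
  have hgen : ∀ a, a < 3 → ge a ∈ K := fun a ha => ⟨mem_ge a, fun i => ⟨_, conj_el ha i⟩⟩
  have hK : K = Spor.M11 := eq_M11 (fun x hx => hx.1) (hgen 0 (by norm_num)) (hgen 1 (by norm_num))
    (hgen 2 (by norm_num))
  rw [← hK] at hg
  exact hg.2 i

/-! ### centralizers -/

theorem cent_v {g : Equiv.Perm GolayPt} (hg : g ∈ Spor.M11) (hc : g * ev = ev * g) : ∃ i < 8, g = ev ^ i := by
  obtain ⟨⟨h1, h2⟩, h3⟩ := mem_M11.1 hg
  obtain ⟨l, hl, hr⟩ := check_spec h1 (rep_inv rep_v) rep_v hc _ tree _ tree_ok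
    (val_cut (val_dod h2) (by rw [h3]; decide))
  rw [List.mem_map] at hl
  obtain ⟨i, hi, rfl⟩ := hl
  exact ⟨i, List.mem_range.1 hi, hr.unique (rep_powl rep_v i)⟩

theorem cent_vb {g : Equiv.Perm GolayPt} (hg : g ∈ Spor.M11) (hc : g * ev = ev * g) (hb : g * eb = eb * g) :
    g = 1 ∨ g = ez := by
  obtain ⟨i, hi, rfl⟩ := cent_v hg hc
  have h := comm_b
  simp only [List.all_eq_true, List.mem_range, Bool.or_eq_true] at h
  rcases h i hi with (h1 | h1) | h1
  · left; rw [Nat.eq_of_beq_eq_true h1, pow_zero]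
  · right; rw [Nat.eq_of_beq_eq_true h1]; rfl
  · exfalso
    have h2 := rep_mul rep_b (rep_powl rep_v i)
    have h3 := rep_mul (rep_powl rep_v i) rep_b
    rw [hb] at h3
    have h4 := rep_eq_list h2 h3
    rw [h4] at h1
    simp at h1

theorem hcen' {g : Equiv.Perm GolayPt} (hg : g ∈ Spor.M11) (h : ∀ i, g * el i = el i * g) : g = 1 := by
  have hT : el 0 * el 7 * el 8 = eT := by
    have h1 := rep_mul (rep_mul (rep_el 0) (rep_el 7)) (rep_el 8)
    change Rep _ (comp (comp (X 0) (X 7)) (X 8)) at h1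
    rw [T_prod] at h1
    exact h1.unique rep_T
  have hc : g * eT = eT * g := by
    rw [← hT]
    calc g * (el 0 * el 7 * el 8) = (g * el 0) * el 7 * el 8 := by group
      _ = el 0 * (g * el 7) * el 8 := by rw [h 0]; group
      _ = el 0 * el 7 * (g * el 8) := by rw [h 7]; group
      _ = el 0 * el 7 * el 8 * g := by rw [h 8]; group
  obtain ⟨i, hi, rfl⟩ := cent_T hg.1.1 hc
  have h1 := comm_T
  simp only [List.all_eq_true, List.mem_range, Bool.or_eq_true] at h1
  rcases h1 i hi with h2 | h2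
  · rw [Nat.eq_of_beq_eq_true h2, pow_zero]
  · exfalso
    have h3 := rep_mul (rep_el 0) (rep_powl rep_T i)
    have h4 := rep_mul (rep_powl rep_T i) (rep_el 0)
    rw [h 0] at h4
    have h5 := rep_eq_list h3 h4
    change comp (X 0) (powl lT i) = comp (powl lT i) (X 0) at h5
    rw [h5] at h2
    simp at h2

/-! ### the model -/

abbrev G0 : Type := ↥Spor.M11

noncomputable def eM (i : Fin 165) : G0 := ⟨el i, el_mem i⟩
noncomputable def zM : G0 := ⟨ez, mem_z⟩

theorem eM_inj {i j : Fin 165} (h : eM i = eM j) : i = j := el_inj (congrArg Subtype.val h)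

theorem eM_zero : eM 0 = zM := Subtype.ext el_zero

theorem isConj_iff' (x : G0) : IsConj zM x ↔ ∃ i, x = eM i := by
  constructor
  · intro h
    obtain ⟨c, hc⟩ := isConj_iff.mp h
    obtain ⟨j, hj⟩ := closed c c.2 0
    refine ⟨j, Subtype.ext ?_⟩
    rw [← hc]
    change (c : Equiv.Perm GolayPt) * ez * (c : Equiv.Perm GolayPt)⁻¹ = el j
    rw [← hj, el_zero]
  · rintro ⟨i, rfl⟩
    obtain ⟨h, hh, e⟩ := el_conj i
    rw [isConj_iff]
    exact ⟨⟨h, hh⟩, Subtype.ext e.symm⟩

theorem card_cent_z : Nat.card (Subgroup.centralizer ({zM} : Set G0)) = 48 := by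
  have h1 := Cfsg.Agent.H20.Prim.card_class_mul_card_centralizer zM
  have h2 : Nat.card {x : G0 // IsConj zM x} = 165 := by
    rw [← Nat.card_fin 165]
    symm
    apply Nat.card_congr
    refine Equiv.ofBijective (fun i => ⟨eM i, (isConj_iff' _).mpr ⟨i, rfl⟩⟩) ⟨?_, ?_⟩
    · intro i j h
      exact eM_inj (congrArg Subtype.val h)
    · rintro ⟨x, hx⟩
      obtain ⟨i, hi⟩ := (isConj_iff' x).mp hx
      exact ⟨i, Subtype.ext hi.symm⟩
  have h3 : Nat.card G0 = 7920 := card_M11
  rw [h2, h3] at h1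
  omega

theorem card_cent (i : Fin 165) : Nat.card (Subgroup.centralizer ({eM i} : Set G0)) = 48 := by
  obtain ⟨c, hc⟩ := isConj_iff.mp ((isConj_iff' (eM i)).mpr ⟨i, rfl⟩)
  rw [← hc, CG.card_centralizer_conj, card_cent_z]

theorem pgroup_vb : ∃ P : Sylow 2 G0, (⟨ev, mem_v⟩ : G0) ∈ (P : Subgroup G0) ∧ (⟨eb, mem_b⟩ : G0) ∈ (P : Subgroup G0) := by
  set v : G0 := ⟨ev, mem_v⟩
  set b : G0 := ⟨eb, mem_b⟩
  have hv8 : v ^ 8 = 1 := Subtype.ext ev_eight
  have hb2 : b * b = 1 := Subtype.ext eb_two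
  have hbv : b * v * b⁻¹ = v ^ 3 := Subtype.ext eb_conj
  have hpv : IsPGroup 2 (Subgroup.zpowers v) := by
    rintro ⟨x, hx⟩
    obtain ⟨k, rfl⟩ := Subgroup.mem_zpowers_iff.mp hx
    refine ⟨3, Subtype.ext ?_⟩
    change (v ^ k) ^ (2 ^ 3) = 1
    rw [← zpow_natCast, ← zpow_mul, mul_comm, zpow_mul]
    norm_num
    rw [hv8, one_zpow]
  have hpb : IsPGroup 2 (Subgroup.zpowers b) := by
    rintro ⟨x, hx⟩
    obtain ⟨k, rfl⟩ := Subgroup.mem_zpowers_iff.mp hx
    refine ⟨1, Subtype.ext ?_⟩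
    change (b ^ k) ^ (2 ^ 1) = 1
    rw [← zpow_natCast, ← zpow_mul, mul_comm, zpow_mul]
    norm_num
    rw [pow_two, hb2, one_zpow]
  have hn : Subgroup.zpowers b ≤ Subgroup.normalizer (Subgroup.zpowers v : Set G0) := by
    rw [Subgroup.zpowers_le, Subgroup.mem_normalizer_iff]
    have h1 : ∀ x ∈ Subgroup.zpowers v, b * x * b⁻¹ ∈ Subgroup.zpowers v := by
      intro x hx
      obtain ⟨k, rfl⟩ := Subgroup.mem_zpowers_iff.mp hx
      rw [← conj_zpow, hbv]
      exact Subgroup.zpow_mem _ (Subgroup.pow_mem _ (Subgroup.mem_zpowers v) 3) k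
    intro x
    refine ⟨h1 x, fun hx => ?_⟩
    have h2 := h1 _ hx
    have hbi : b⁻¹ = b := inv_eq_of_mul_eq_one_right hb2
    rw [hbi] at h2
    have h3 : b * (b * x * b) * b = x := by
      calc b * (b * x * b) * b = (b * b) * x * (b * b) := by group
        _ = x := by rw [hb2]; simp
    rwa [h3] at h2
  have hp : IsPGroup 2 (Subgroup.zpowers b ⊔ Subgroup.zpowers v : Subgroup G0) :=
    IsPGroup.to_sup_of_normal_right' hpb hpv hn
  obtain ⟨P, hP⟩ := hp.exists_le_sylow
  exact ⟨P, hP (Subgroup.mem_sup_right (Subgroup.mem_zpowers v)), hP (Subgroup.mem_sup_left (Subgroup.mem_zpowers b))⟩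

theorem card_sylow (P : Sylow 2 G0) : Nat.card P = 16 := by
  have h := P.card_eq_multiplicity
  have h3 : Nat.card G0 = 7920 := card_M11
  rw [h3, show (7920 : ℕ) = 2 ^ 4 * 495 by norm_num] at h
  rw [h, Nat.factorization_mul (by norm_num) (by norm_num), Finsupp.add_apply,
    Nat.Prime.factorization_pow Nat.prime_two, Finsupp.single_eq_same,
    Nat.factorization_eq_zero_of_not_dvd (by norm_num)]
  norm_num

theorem mem_iff (g : G0) (hg : g ≠ 1) : (∃ i, g = eM i) ↔ 16 ∣ Nat.card (Subgroup.centralizer ({g} : Set G0)) := by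
  constructor
  · rintro ⟨i, rfl⟩
    rw [card_cent]; norm_num
  · intro h
    have h16 : (2 ^ 4 : ℕ) ∣ Nat.card (Subgroup.centralizer ({g} : Set G0)) := h
    have : Fact (Nat.Prime 2) := ⟨Nat.prime_two⟩
    obtain ⟨Q, hQ⟩ := Sylow.exists_subgroup_card_pow_prime 2 h16
    let Q' : Subgroup G0 := Q.map (Subgroup.centralizer ({g} : Set G0)).subtype
    have hcQ : Nat.card Q' = 16 := by
      rw [Nat.card_congr (Q.equivMapOfInjective _ (Subgroup.subtype_injective _)).toEquiv.symm, hQ]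
      norm_num
    have hQp : IsPGroup 2 Q' := IsPGroup.of_card (n := 4) (by rw [hcQ]; norm_num)
    obtain ⟨P, hP⟩ := hQp.exists_le_sylow
    have hPQ : Q' = P := Subgroup.eq_of_le_of_card_ge hP (by
      have := card_sylow P
      rw [hcQ]; exact this.le)
    obtain ⟨P1, hv, hb⟩ := pgroup_vb
    obtain ⟨k, hk⟩ := MulAction.exists_smul_eq G0 P P1
    have hcomm : ∀ x ∈ (P1 : Subgroup G0), (k * g * k⁻¹) * x = x * (k * g * k⁻¹) := by
      intro x hx
      rw [← hk, Sylow.coe_subgroup_smul, Subgroup.mem_pointwise_smul_iff_inv_smul_mem, ← hPQ] at hx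
      obtain ⟨q, hq, e⟩ := hx
      have h1 : g * (q : G0) = q * g := (Subgroup.mem_centralizer_iff.mp q.2) g rfl
      have h2 : x = k * (q : G0) * k⁻¹ := by
        have h3 : (q : G0) = k⁻¹ * x * k := by
          have : (q : G0) = (MulAut.conj k)⁻¹ • x := e
          rw [this]
          change (MulAut.conj k)⁻¹ x = _
          rw [← map_inv, MulAut.conj_apply, inv_inv]
        rw [h3]; group
      rw [h2]
      calc k * g * k⁻¹ * (k * (q : G0) * k⁻¹) = k * (g * q) * k⁻¹ := by group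
        _ = k * (q * g) * k⁻¹ := by rw [h1]
        _ = k * (q : G0) * k⁻¹ * (k * g * k⁻¹) := by group
    have h1 := congrArg Subtype.val (hcomm _ hv)
    have h2 := congrArg Subtype.val (hcomm _ hb)
    have h3 := cent_vb (k * g * k⁻¹).2 h1 h2
    rcases h3 with h3 | h3
    · exfalso
      apply hg
      have h4 : k * g * k⁻¹ = 1 := Subtype.ext h3
      calc g = k⁻¹ * (k * g * k⁻¹) * k := by group
        _ = 1 := by rw [h4]; group
    · rw [← isConj_iff', isConj_comm, isConj_iff]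
      exact ⟨k, Subtype.ext h3⟩

open Classical in
noncomputable def ixM (g : G0) : Fin 165 := if h : ∃ i, g = eM i then h.choose else 0

theorem ixM_eM (i : Fin 165) : ixM (eM i) = i := by
  have h : ∃ j, eM i = eM j := ⟨i, rfl⟩
  rw [ixM, dif_pos h]
  exact (eM_inj h.choose_spec).symm

noncomputable def model : CG.Model G0 165 rows where
  T := {g | ∃ i, g = eM i}
  m := 16
  ix := ixM
  one_notMem := by
    rintro ⟨i, hi⟩
    have h1 := card_cent i
    rw [← hi] at h1
    have h2 : Subgroup.centralizer ({1} : Set G0) = ⊤ := by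
      rw [eq_top_iff]; intro x _; rw [Subgroup.mem_centralizer_iff]; simp
    rw [h2, Subgroup.card_top] at h1
    have h3 : Nat.card G0 = 7920 := card_M11
    omega
  mem_iff := mem_iff
  surj := fun i => ⟨eM i, ⟨i, rfl⟩, ixM_eM i⟩
  adj_iff := by
    rintro _ ⟨i, rfl⟩ _ ⟨j, rfl⟩
    rw [ixM_eM, ixM_eM, adj_el]
    exact Subtype.ext_iff
  rows_inj := rows_inj

set_option maxRecDepth 100000 in
theorem model_ix : model.ix = ixM := by delta model; rfl

theorem main {H : Type*} [Group H] [Finite H] (f : {h : H // h ≠ 1} ≃ {g : G0 // g ≠ 1})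
    (hf : ∀ x y : {h : H // h ≠ 1}, (x : H) * y = y * x ↔ (f x : G0) * (f y) = (f y) * (f x)) :
    Nonempty (H ≃* G0) := by
  obtain ⟨F, hF1, hF⟩ := CG.exists_total f hf
  obtain ⟨ρ, h1, h2⟩ := CG.exists_hom model F hF1 hF
  obtain ⟨ρ', h1', h2'⟩ := CG.exists_hom model (Equiv.refl G0) rfl (fun x y => Iff.rfl)
  have hcen : ∀ g : G0, (∀ t ∈ model.T, g * t = t * g) → g = 1 := by
    intro g hg
    apply Subtype.ext
    apply hcen' g.2
    intro i
    exact congrArg Subtype.val (hg (eM i) ⟨i, rfl⟩)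
  have hixM := model_ix
  have hix : ∀ x ∈ model.T, ∀ y ∈ model.T, model.ix x = model.ix y → x = y := by
    rintro _ ⟨i, rfl⟩ _ ⟨j, rfl⟩ h
    rw [hixM, ixM_eM, ixM_eM] at h
    exact congrArg eM h
  have hi : Function.Injective ρ := CG.injective_of_singleton model F hF1 hF hcen hix ρ h1
  have hi' : Function.Injective ρ' := CG.injective_of_singleton model (Equiv.refl G0) rfl
    (fun x y => Iff.rfl) hcen hix ρ' h1'
  refine CG.equiv_of_card F ρ ρ' h2 h2' hi hi' ?_
  have h3 : Nat.card G0 = 7920 := card_M11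
  rw [h3]
  have := card_le rows steps check_ok (CG.autG 165 rows) (fun σ hσ => hσ)
  rw [prod_ok] at this
  exact this

end Cfsg.Agent.H20.M11D
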