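import Mathlib
set_option autoImplicit false

/-! McConnel's theorem over prime fields: `(f x - f y)^m = (x - y)^m`, `2 m < p` implies `f` affine -/
namespace Cfsg.Agent.H20.McC
open Polynomial

variable {p : ℕ} [hp : Fact p.Prime]

theorem sum_pow (e : ℕ) (he : 0 < e) : ∑ c : ZMod p, c ^ e = if (p - 1) ∣ e then -1 else 0 := by
  classical
  have h1 := FiniteField.sum_pow_units (ZMod p) e
  rw [ZMod.card] at h1
  rw [← h1]
  have h2 : ∑ c : ZMod p, c ^ e = ∑ c ∈ (Finset.univ : Finset (ZMod p)).erase 0, c ^ e := by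
    rw [← Finset.sum_erase_add _ _ (Finset.mem_univ (0 : ZMod p)), zero_pow he.ne', add_zero]
  rw [h2]
  symm
  apply Finset.sum_bij (fun (u : (ZMod p)ˣ) _ => (u : ZMod p))
  · intro u _; simp
  · intro u _ v _ h; exact Units.ext h
  · intro c hc
    rw [Finset.mem_erase] at hc
    exact ⟨Units.mk0 c hc.1, Finset.mem_univ _, rfl⟩
  · intro u _; simp

theorem inv_formula (m i0 : ℕ) (hm : m < p - 1) (hi : i0 ≤ m) (t : ZMod p) :
    ∑ c : ZMod p, c ^ (p - 1 - i0) * (c - t) ^ m = -((m.choose i0 : ZMod p) * (-t) ^ (m - i0)) := by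
  classical
  have h1 : ∀ c : ZMod p, c ^ (p - 1 - i0) * (c - t) ^ m =
      ∑ i ∈ Finset.range (m + 1), c ^ (p - 1 - i0 + i) * ((-t) ^ (m - i) * (m.choose i : ZMod p)) := by
    intro c
    rw [sub_eq_add_neg c t, add_pow, Finset.mul_sum]
    apply Finset.sum_congr rfl
    intro i _
    rw [pow_add]; ring
  rw [Finset.sum_congr rfl (fun c _ => h1 c), Finset.sum_comm]
  have h2 : ∀ i ∈ Finset.range (m + 1), ∑ c : ZMod p, c ^ (p - 1 - i0 + i) * ((-t) ^ (m - i) * (m.choose i : ZMod p)) =
      if i = i0 then -((m.choose i0 : ZMod p) * (-t) ^ (m - i0)) else 0 := by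
    intro i hi'
    rw [Finset.mem_range] at hi'
    rw [← Finset.sum_mul, sum_pow _ (by omega)]
    by_cases h : i = i0
    · subst h
      have h3 : p - 1 - i + i = p - 1 := by omega
      rw [h3, if_pos (dvd_refl _), if_pos rfl]; ring
    · rw [if_neg h, if_neg, zero_mul]
      rintro ⟨k, hk⟩
      have hk1 : k = 1 := by
        have h3 : 0 < p - 1 := by omega
        have h4 : p - 1 - i0 + i < (p - 1) * 2 := by omega
        have h5 : 0 < p - 1 - i0 + i := by omega
        rw [hk] at h4 h5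
        have h6 := Nat.lt_of_mul_lt_mul_left h4
        rcases Nat.eq_zero_or_pos k with h7 | h7
        · rw [h7] at h5; omega
        · omega
      rw [hk1, mul_one] at hk
      omega
  rw [Finset.sum_congr rfl h2, Finset.sum_ite_eq' (Finset.range (m+1)) i0, if_pos (Finset.mem_range.mpr (by omega))]

theorem exists_poly (m : ℕ) (hm : m < p - 1) (f : Equiv.Perm (ZMod p))
    (hf : ∀ x y, (f x - f y) ^ m = (x - y) ^ m) (j : ℕ) (hj : j ≤ m) :
    ∃ Q : (ZMod p)[X], Q.natDegree ≤ m ∧ ∀ y, Q.eval y = (f y) ^ j := by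
  classical
  set i0 := m - j with hi0
  have hij : m - i0 = j := by omega
  have hch : (m.choose i0 : ZMod p) ≠ 0 := by
    intro h
    rw [ZMod.natCast_eq_zero_iff] at h
    have h1 : p ∣ m.factorial := by
      have h2 := Nat.choose_mul_factorial_mul_factorial (n := m) (k := i0) (by omega)
      rw [← h2, mul_assoc]
      exact Dvd.dvd.mul_right h _
    rw [hp.out.dvd_factorial] at h1
    omega
  set Q0 : (ZMod p)[X] := ∑ c : ZMod p, C (c ^ (p - 1 - i0)) * (C (f.symm c) - X) ^ m with hQ0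
  have hQ0d : Q0.natDegree ≤ m := by
    rw [hQ0]
    apply Polynomial.natDegree_sum_le_of_forall_le
    intro c _
    refine (natDegree_C_mul_le _ _).trans ?_
    refine natDegree_pow_le.trans ?_
    have h1 : (C (f.symm c) - X : (ZMod p)[X]).natDegree ≤ 1 := by
      refine (natDegree_sub_le _ _).trans ?_
      rw [natDegree_C, natDegree_X]; simp
    calc m * (C (f.symm c) - X : (ZMod p)[X]).natDegree ≤ m * 1 := Nat.mul_le_mul_left _ h1
      _ = m := mul_one m
  have hQ0e : ∀ y, Q0.eval y = -((m.choose i0 : ZMod p) * (-(f y)) ^ j) := by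
    intro y
    rw [hQ0, eval_finset_sum, ← hij, ← inv_formula m i0 hm (by omega) (f y)]
    apply Finset.sum_congr rfl
    intro c _
    rw [eval_mul, eval_C, eval_pow, eval_sub, eval_C, eval_X]
    congr 1
    have h2 := hf (f.symm c) y
    rw [Equiv.apply_symm_apply] at h2
    exact h2.symm
  refine ⟨C (-(-1) ^ j * (m.choose i0 : ZMod p)⁻¹) * Q0, (natDegree_C_mul_le _ _).trans hQ0d, ?_⟩
  intro y
  rw [eval_mul, eval_C, hQ0e]
  have h3 : (-(f y)) ^ j = (-1) ^ j * (f y) ^ j := by rw [← mul_pow]; simp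
  rw [h3]
  have h4 : ((-1 : ZMod p) ^ j) * (-1) ^ j = 1 := by rw [← mul_pow]; simp
  calc -(-1) ^ j * (m.choose i0 : ZMod p)⁻¹ * -((m.choose i0 : ZMod p) * ((-1) ^ j * (f y) ^ j))
      = (((-1 : ZMod p) ^ j) * (-1) ^ j) * ((m.choose i0 : ZMod p)⁻¹ * (m.choose i0 : ZMod p)) * (f y) ^ j := by ring
    _ = (f y) ^ j := by rw [h4, inv_mul_cancel₀ hch]; ring

theorem main (m : ℕ) (hm1 : 1 ≤ m) (hm : 2 * m < p) (hm' : m < p - 1) (f : Equiv.Perm (ZMod p))
    (hf : ∀ x y, (f x - f y) ^ m = (x - y) ^ m) : ∃ a b : ZMod p, ∀ y, f y = a * y + b := by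
  classical
  obtain ⟨Q, hQd, hQ⟩ := exists_poly m hm' f hf 1 hm1
  have hQ' : ∀ y, Q.eval y = f y := fun y => by rw [hQ, pow_one]
  set n := Q.natDegree with hn
  have hn1 : n ≤ 1 := by
    by_contra hcon
    push Not at hcon
    have hmn : n ≤ m := hQd
    set i := m / n + 1 with hi
    have h1 : n * (m / n) ≤ m := Nat.mul_div_le m n
    have h2 : m < n * (m / n + 1) := Nat.lt_mul_div_succ m (by omega)
    have h3 : i ≤ m := by
      have h4 : m / n ≤ m / 2 := Nat.div_le_div_left hcon (by omega)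
      omega
    obtain ⟨R, hRd, hR⟩ := exists_poly m hm' f hf i h3
    have h4 : (Q ^ i).natDegree = i * n := natDegree_pow Q i
    have h5 : i * n ≤ m + n := by
      have : i * n = n * (m / n) + n := by rw [hi]; ring
      omega
    have h6 : Q ^ i - R = 0 := by
      apply Polynomial.eq_zero_of_natDegree_lt_card_of_eval_eq_zero (Q ^ i - R) (f := fun y : ZMod p => y) Function.injective_id
      · intro y
        rw [eval_sub, eval_pow, hQ', hR, sub_self]
      · rw [ZMod.card]
        have h7 := natDegree_sub_le (Q ^ i) R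
        rw [h4] at h7
        have h8 : max (i * n) R.natDegree < p := by
          rw [max_lt_iff]; omega
        omega
    have h7 : (Q ^ i).natDegree ≤ m := by rw [sub_eq_zero.mp h6]; exact hRd
    rw [h4] at h7
    have h8 : i * n = n * (m / n + 1) := by rw [hi]; ring
    omega
  have h2 := Polynomial.eq_X_add_C_of_natDegree_le_one hn1
  refine ⟨Q.coeff 1, Q.coeff 0, fun y => ?_⟩
  rw [← hQ', h2]
  simp

end Cfsg.Agent.H20.McC
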