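import Cfsg.Agent.H20_HomF2
set_option autoImplicit false

/-! linear algebra for groups with three automorphism orbits -/
namespace Cfsg.Agent.H20.Orb3
open HomF

variable {p q : ℕ} [Fact p.Prime] [Fact q.Prime] {V : Type*} [AddCommGroup V] [Module (ZMod p) V] [Finite V]
  [Nontrivial V]

instance : Finite (V ≃ₗ[ZMod p] V) := Finite.of_injective (fun f : V ≃ₗ[ZMod p] V => (f : V → V))
  (fun f g h => LinearEquiv.ext (fun v => congrFun h v))

/-- additive automorphisms are linear over the prime field -/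
def toLin (α : V ≃+ V) : V ≃ₗ[ZMod p] V :=
  { toFun := α
    invFun := α.symm
    left_inv := α.left_inv
    right_inv := α.right_inv
    map_add' := α.map_add
    map_smul' := fun c v => ZMod.map_smul (α : V →+ V) c v }

theorem toLin_apply (α : V ≃+ V) (v : V) : toLin (p := p) α v = α v := rfl

theorem order_eq (T : V ≃ₗ[ZMod p] V) (hTq : T ^ q = 1) (hT1 : T ≠ 1)
    (htr : ∀ v w : V, v ≠ 0 → w ≠ 0 → ∃ (α : V ≃ₗ[ZMod p] V) (i : ℕ), α v = w ∧ α * T = T ^ i * α)
    (hgal : ∀ i : ℕ, 0 < i → i < q → ∃ α : V ≃ₗ[ZMod p] V, α * T = T ^ i * α) (hpq : p ≠ q) :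
    orderOf (p : ZMod q) = q - 1 := by
  classical
  have hq : q.Prime := Fact.out
  have hp : p.Prime := Fact.out
  have hTord : orderOf T = q := orderOf_eq_prime hTq hT1
  set Z : Subgroup (V ≃ₗ[ZMod p] V) := Subgroup.zpowers T with hZ
  -- the relation α T = T^i α puts α in the normalizer
  have hnorm : ∀ (α : V ≃ₗ[ZMod p] V) (i : ℕ), α * T = T ^ i * α → α ∈ Subgroup.normalizer (Z : Set (V ≃ₗ[ZMod p] V)) := by
    intro α i h
    have h1 : α * T * α⁻¹ = T ^ i := by rw [h]; group
    have h2 : Z.map (MulAut.conj α).toMonoidHom = Z := by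
      have h3 : Z.map (MulAut.conj α).toMonoidHom ≤ Z := by
        rw [hZ, MonoidHom.map_zpowers, Subgroup.zpowers_le]
        change α * T * α⁻¹ ∈ _
        rw [h1]
        exact Subgroup.pow_mem _ (Subgroup.mem_zpowers T) i
      apply Subgroup.eq_of_le_of_card_ge h3
      rw [Subgroup.card_map_of_injective (MulAut.conj α).injective]
    rw [Subgroup.mem_normalizer_iff]
    intro x
    constructor
    · intro hx
      have : α * x * α⁻¹ ∈ Z.map (MulAut.conj α).toMonoidHom := ⟨x, hx, rfl⟩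
      rwa [h2] at this
    · intro hx
      have h3 : α * x * α⁻¹ ∈ Z := hx
      rw [← h2] at h3
      obtain ⟨y, hy, hxy⟩ := h3
      have : y = x := (MulAut.conj α).injective hxy
      rwa [← this]
  set H := Subgroup.normalizer (Z : Set (V ≃ₗ[ZMod p] V)) with hH
  have hTZ : T ∈ Z := Subgroup.mem_zpowers T
  have hZH : Z ≤ H := Subgroup.le_normalizer
  have hTH : T ∈ H := hZH hTZ
  set ρ : H →* (V ≃ₗ[ZMod p] V) := H.subtype with hρ
  have hρi : Function.Injective ρ := Subtype.val_injective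
  set A : Subgroup H := Z.subgroupOf H with hAdef
  have hA : ∀ a ∈ A, ∀ b ∈ A, a * b = b * a := by
    rintro ⟨a, haH⟩ ha ⟨b, hbH⟩ hb
    obtain ⟨i, rfl⟩ : a ∈ Subgroup.zpowers T := ha
    obtain ⟨j, rfl⟩ : b ∈ Subgroup.zpowers T := hb
    apply Subtype.ext
    change T ^ i * T ^ j = T ^ j * T ^ i
    rw [← zpow_add, ← zpow_add, add_comm]
  have hn : ∀ g : H, ∀ a ∈ A, g * a * g⁻¹ ∈ A := by
    intro g a ha
    exact (Subgroup.mem_normalizer_iff.mp g.2 a).mp ha
  have htrans : ∀ v w : V, v ≠ 0 → w ≠ 0 → ∃ g : H, ρ g v = w := by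
    intro v w hv hw
    obtain ⟨α, i, h1, h2⟩ := htr v w hv hw
    exact ⟨⟨α, hnorm α i h2⟩, h1⟩
  obtain ⟨F, _, _, _, θ, hθ⟩ := exists_field ρ hA hn htrans
  obtain ⟨S, hS⟩ := exists_sigma ρ θ hθ hn
  obtain ⟨m, -, hm⟩ := FiniteField.card F p
  have haut := card_aut (q := p) (F := F) m hm
  -- the element t
  obtain ⟨t, ht⟩ := (hθ _).mp (R_mem ρ (A := A) (a := ⟨T, hTH⟩) hTZ)
  have hRpow : ∀ i : ℕ, R ρ (⟨T, hTH⟩ ^ i : H) = θ (t ^ i) := by
    intro i; rw [map_pow, map_pow, ht]
  have htq : t ^ q = 1 := by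
    apply θ_inj θ
    rw [← hRpow, map_one]
    have : (⟨T, hTH⟩ ^ q : H) = 1 := Subtype.ext hTq
    rw [this, map_one]
  have ht1 : t ≠ 1 := by
    intro h
    apply hT1
    have h1 : (⟨T, hTH⟩ : H) = 1 := by
      apply R_inj ρ hρi
      rw [← ht, h, map_one, map_one]
    exact congrArg Subtype.val h1
  have htord : orderOf t = q := orderOf_eq_prime htq ht1
  -- many automorphisms
  have hle1 : q - 1 ≤ m := by
    rw [← haut]
    have hex : ∀ i : Fin (q - 1), ∃ σ : F ≃+* F, σ t = t ^ (i.1 + 1) := by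
      intro i
      obtain ⟨α, hα⟩ := hgal (i.1 + 1) (by omega) (by omega)
      refine ⟨S ⟨α, hnorm α _ hα⟩, ?_⟩
      apply θ_inj θ
      rw [← hS, ht, ← hRpow, ← map_mul, ← map_mul]
      congr 1
      apply Subtype.ext
      change α * T * α⁻¹ = T ^ (i.1 + 1)
      rw [hα]; group
    choose σ hσ using hex
    have hinj : Function.Injective σ := by
      intro i j hij
      have h1 : t ^ (i.1 + 1) = t ^ (j.1 + 1) := by rw [← hσ, ← hσ, hij]
      have h2 := pow_injOn_Iio_orderOf (x := t) (by rw [Set.mem_Iio, htord]; omega)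
        (by rw [Set.mem_Iio, htord]; omega) h1
      apply Fin.ext
      omega
    have : Finite (F ≃+* F) := Finite.of_injective (fun f : F ≃+* F => (f : F → F))
      (fun f g h => RingEquiv.ext (fun v => congrFun h v))
    have h3 := Nat.card_le_card_of_injective σ hinj
    rwa [Nat.card_fin] at h3
  -- the order of p
  have hpu : IsUnit (p : ZMod q) := by
    rw [ZMod.isUnit_iff_coprime]
    exact (Nat.coprime_primes hp hq).mpr hpq
  set d := orderOf (p : ZMod q) with hd
  have hd1 : (p : ZMod q) ^ d = 1 := pow_orderOf_eq_one _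
  have hdpos : 0 < d := by
    rw [hd, orderOf_pos_iff, isOfFinOrder_iff_pow_eq_one]
    refine ⟨q - 1, by have := hq.two_le; omega, ?_⟩
    obtain ⟨u, hu⟩ := hpu
    have h1 : (p : ZMod q) ≠ 0 := by rw [← hu]; exact u.ne_zero
    exact ZMod.pow_card_sub_one_eq_one h1
  have hle3 : d ≤ q - 1 := by
    apply Nat.le_of_dvd (by have := hq.two_le; omega)
    rw [hd]
    apply orderOf_dvd_of_pow_eq_one
    obtain ⟨u, hu⟩ := hpu
    have h1 : (p : ZMod q) ≠ 0 := by rw [← hu]; exact u.ne_zero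
    exact ZMod.pow_card_sub_one_eq_one h1
  have htp : t ^ (p ^ d) = t := by
    have h1 : (p ^ d) % q = 1 := by
      have h2 : ((p ^ d : ℕ) : ZMod q) = (1 : ℕ) := by push_cast; exact hd1
      rw [ZMod.natCast_eq_natCast_iff'] at h2
      rw [h2]; exact Nat.mod_eq_of_lt hq.one_lt
    have h2 := pow_mod_orderOf t (p ^ d)
    rw [htord, h1, pow_one] at h2
    exact h2.symm
  -- every element is fixed
  have hfix : ∀ x ∈ E ρ A, ∃ a : F, θ a = x ∧ a ^ (p ^ d) = a := by
    intro x hx
    induction hx using Algebra.adjoin_induction with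
    | mem x hx =>
      obtain ⟨⟨a, haH⟩, ha, rfl⟩ := hx
      obtain ⟨i, hi⟩ : ∃ i : ℕ, T ^ i = a := by
        have h1 : a ∈ Subgroup.zpowers T := ha
        exact (mem_powers_iff_mem_zpowers.mpr h1)
      refine ⟨t ^ i, ?_, ?_⟩
      · rw [← hRpow]; congr 1; exact Subtype.ext hi
      · rw [← pow_mul, mul_comm, pow_mul, htp]
    | algebraMap r =>
      refine ⟨(r.val : F), ?_, ?_⟩
      · rw [map_natCast]
        have h1 : r = ((r.val : ℕ) : ZMod p) := (ZMod.natCast_zmod_val r).symm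
        conv_rhs => rw [h1]
        rw [map_natCast]
      · have h1 : ((r.val : ℕ) : F) ^ p = (r.val : ℕ) := map_natCast (frobenius F p) r.val
        have h2 : ∀ k : ℕ, ((r.val : ℕ) : F) ^ (p ^ k) = (r.val : ℕ) := by
          intro k
          induction k with
          | zero => rw [pow_zero, pow_one]
          | succ k ih => rw [pow_succ, pow_mul, ih]; exact h1
        exact h2 d
    | add x y _ _ h1 h2 =>
      obtain ⟨a, ha, ha'⟩ := h1
      obtain ⟨b, hb, hb'⟩ := h2
      refine ⟨a + b, by rw [map_add, ha, hb], ?_⟩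
      rw [add_pow_char_pow, ha', hb']
    | mul x y _ _ h1 h2 =>
      obtain ⟨a, ha, ha'⟩ := h1
      obtain ⟨b, hb, hb'⟩ := h2
      refine ⟨a * b, by rw [map_mul, ha, hb], ?_⟩
      rw [mul_pow, ha', hb']
  have hall : ∀ a : F, a ^ (p ^ d) = a := by
    intro a
    obtain ⟨b, hb, hb'⟩ := hfix (θ a) ((hθ _).mpr ⟨a, rfl⟩)
    have := θ_inj θ hb
    rw [← this]; exact hb'
  have hle2 : (m : ℕ) ≤ d := by
    have h1 : Fintype.card F ≤ p ^ d := by
      have h2 : 1 < p ^ d := Nat.one_lt_pow hdpos.ne' hp.one_lt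
      have h3 : (Polynomial.X ^ (p ^ d) - Polynomial.X : Polynomial F) ≠ 0 :=
        FiniteField.X_pow_card_sub_X_ne_zero F h2
      have h4 : (Polynomial.X ^ (p ^ d) - Polynomial.X : Polynomial F).natDegree = p ^ d :=
        FiniteField.X_pow_card_sub_X_natDegree_eq F h2
      have h5 := Polynomial.card_roots' (Polynomial.X ^ (p ^ d) - Polynomial.X : Polynomial F)
      have h6 : (Finset.univ : Finset F) ⊆ (Polynomial.X ^ (p ^ d) - Polynomial.X : Polynomial F).roots.toFinset := by
        intro a _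
        rw [Multiset.mem_toFinset, Polynomial.mem_roots h3]
        simp [Polynomial.IsRoot, hall a]
      have h7 := Finset.card_le_card h6
      have h8 := Multiset.toFinset_card_le (Polynomial.X ^ (p ^ d) - Polynomial.X : Polynomial F).roots
      rw [Finset.card_univ] at h7
      omega
    rw [hm] at h1
    exact (Nat.pow_le_pow_iff_right hp.one_lt).mp h1
  omega

end Cfsg.Agent.H20.Orb3
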