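import Cfsg.Agent.H20_Orb3
set_option autoImplicit false

/-! linear algebra for groups with three automorphism orbits, converse part -/
namespace Cfsg.Agent.H20.Orb3
open HomF

variable {p q : ℕ} [Fact p.Prime] [Fact q.Prime] {V : Type*} [AddCommGroup V] [Module (ZMod p) V] [Finite V]
  [Nontrivial V]

/-- a commutative subalgebra whose nonzero elements are injective is a field -/
theorem field_of (S : Subalgebra (ZMod p) (Module.End (ZMod p) V)) (hcomm : ∀ x ∈ S, ∀ y ∈ S, x * y = y * x)
    (hinj : ∀ x ∈ S, x ≠ 0 → ∀ v : V, v ≠ 0 → x v ≠ 0) :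
    ∃ (F : Type) (_ : Field F) (_ : Fintype F) (_ : CharP F p)
    (θ : F →+* Module.End (ZMod p) V), ∀ x, x ∈ S ↔ ∃ a : F, θ a = x := by
  classical
  letI cr : CommRing S := { (inferInstance : Ring S) with
    mul_comm := fun x y => Subtype.ext (hcomm x x.2 y y.2) }
  obtain ⟨v0, hv0⟩ := exists_ne (0 : V)
  have hnt : Nontrivial S := by
    refine ⟨⟨0, 1, fun h => hv0 ?_⟩⟩
    have h1 : (0 : Module.End (ZMod p) V) = 1 := congrArg Subtype.val h
    have := congrArg (fun f : Module.End (ZMod p) V => f v0) h1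
    exact this.symm
  have hfin : Finite S := Subtype.finite
  have hfield : IsField S := by
    apply isField_of
    intro x y h
    by_contra hcon
    push Not at hcon
    have hy0 : (y : Module.End (ZMod p) V) ≠ 0 := fun h' => hcon.2 (Subtype.ext h')
    have hx0 : (x : Module.End (ZMod p) V) ≠ 0 := fun h' => hcon.1 (Subtype.ext h')
    have h1 : (x : Module.End (ZMod p) V) * y = 0 := congrArg Subtype.val h
    have h2 := congrArg (fun f : Module.End (ZMod p) V => f v0) h1
    exact hinj x x.2 hx0 _ (hinj y y.2 hy0 v0 hv0) h2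
  letI : Field S := hfield.toField
  letI : Fintype S := Fintype.ofFinite _
  have hq0 : (p : S) = 0 := by
    apply Subtype.ext
    have h1 : ((p : S) : Module.End (ZMod p) V) = (p : Module.End (ZMod p) V) := by
      exact map_natCast S.val p
    rw [h1]
    apply LinearMap.ext
    intro v
    have h2 : (p : Module.End (ZMod p) V) v = (p : ZMod p) • v := by
      rw [Nat.cast_smul_eq_nsmul]
      exact Module.End.natCast_apply p v
    rw [h2, CharP.cast_eq_zero, zero_smul]; rfl
  have hchar : CharP S p := (CharP.charP_iff_prime_eq_zero (Fact.out : p.Prime)).mpr hq0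
  obtain ⟨n, -, hn'⟩ := FiniteField.card S p
  letI : Fintype (GaloisField p n) := Fintype.ofFinite _
  have hcard : Fintype.card (GaloisField p n) = Fintype.card S := by
    rw [hn', ← Nat.card_eq_fintype_card, GaloisField.card p n n.pos.ne']
  let f := FiniteField.ringEquivOfCardEq hcard
  refine ⟨GaloisField p n, inferInstance, inferInstance, inferInstance,
    (S.val : S →+* Module.End (ZMod p) V).comp f.toRingHom, ?_⟩
  intro x
  constructor
  · intro hx
    refine ⟨f.symm ⟨x, hx⟩, ?_⟩
    change ((f (f.symm ⟨x, hx⟩) : S) : Module.End (ZMod p) V) = x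
    rw [RingEquiv.apply_symm_apply]
  · rintro ⟨a, rfl⟩
    exact (f a).2

open Polynomial in
theorem exists_F (T : V ≃ₗ[ZMod p] V) (hTq : T ^ q = 1) (hf : ∀ v, T v = v → v = 0)
    (hord : orderOf (p : ZMod q) = q - 1) :
    ∃ (F : Type) (_ : Field F) (_ : Fintype F) (_ : CharP F p)
    (θ : F →+* Module.End (ZMod p) V) (t : F), (∀ v, θ t v = T v) ∧ t ^ q = 1 := by
  classical
  have hp : p.Prime := Fact.out
  have hq : q.Prime := Fact.out
  set T' : Module.End (ZMod p) V := (T : V →ₗ[ZMod p] V) with hT'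
  have hT'pow : ∀ i v, (T' ^ i) v = (T ^ i) v := by
    intro i
    induction i with
    | zero => intro v; rfl
    | succ i ih => intro v; rw [pow_succ, pow_succ]; exact ih (T v)
  have hT'q : T' ^ q = 1 := by
    apply LinearMap.ext; intro v; rw [hT'pow, hTq]; rfl
  -- the sum of powers vanishes
  set Φ : (ZMod p)[X] := ∑ i ∈ Finset.range q, X ^ i with hΦ
  have hΦT : aeval T' Φ = 0 := by
    have h1 : aeval T' Φ = ∑ i ∈ Finset.range q, T' ^ i := by rw [hΦ, map_sum]; simp
    rw [h1]
    apply LinearMap.ext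
    intro v
    apply hf
    have h2 : T' * ∑ i ∈ Finset.range q, T' ^ i = ∑ i ∈ Finset.range q, T' ^ i := by
      have h3 := mul_geom_sum T' q
      rw [hT'q, sub_self, sub_mul, one_mul, sub_eq_zero] at h3
      exact h3
    exact congrArg (fun f : Module.End (ZMod p) V => f v) h2
  have hΦm : Φ.Monic := by
    rw [hΦ]; exact Polynomial.monic_geom_sum_X hq.ne_zero
  have hΦd : Φ.natDegree = q - 1 := by
    rw [hΦ]
    have h1 : (∑ i ∈ Finset.range q, X ^ i : (ZMod p)[X]) = cyclotomic q (ZMod p) := (cyclotomic_prime _ q).symm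
    rw [h1, natDegree_cyclotomic, Nat.totient_prime hq]
  set S : Subalgebra (ZMod p) (Module.End (ZMod p) V) := (aeval T').range with hS
  have hcomm : ∀ x ∈ S, ∀ y ∈ S, x * y = y * x := by
    rintro _ ⟨a, rfl⟩ _ ⟨b, rfl⟩
    change aeval T' a * aeval T' b = aeval T' b * aeval T' a
    rw [← map_mul, ← map_mul, mul_comm]
  -- card S ≤ p^(q-1)
  have hSfin : Finite S := Subtype.finite
  have hScard : Nat.card S ≤ p ^ (q - 1) := by
    let g : (Fin (q - 1) → ZMod p) → S := fun c => ⟨aeval T' ((degreeLTEquiv (ZMod p) (q - 1)).symm c : (ZMod p)[X]), ⟨_, rfl⟩⟩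
    have hg : Function.Surjective g := by
      rintro ⟨x, a, rfl⟩
      have h1 : a %ₘ Φ ∈ degreeLT (ZMod p) (q - 1) := by
        rw [mem_degreeLT]
        have h2 := degree_modByMonic_lt a hΦm
        rwa [degree_eq_natDegree hΦm.ne_zero, hΦd] at h2
      refine ⟨degreeLTEquiv (ZMod p) (q - 1) ⟨_, h1⟩, ?_⟩
      apply Subtype.ext
      change aeval T' (((degreeLTEquiv (ZMod p) (q - 1)).symm ((degreeLTEquiv (ZMod p) (q - 1)) ⟨_, h1⟩) : _) : (ZMod p)[X]) = aeval T' a
      rw [LinearEquiv.symm_apply_apply]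
      change aeval T' (a %ₘ Φ) = aeval T' a
      conv_rhs => rw [← modByMonic_add_div a Φ]
      rw [map_add, map_mul, hΦT, zero_mul, add_zero]
    have h1 := Nat.card_le_card_of_surjective g hg
    rwa [Nat.card_fun, Nat.card_zmod, Nat.card_fin] at h1
  -- cyclic modules are large
  have hbig : ∀ v : V, v ≠ 0 → p ^ (q - 1) ≤ Nat.card (Set.range (fun x : S => (x : Module.End (ZMod p) V) v)) := by
    intro v hv
    let ev : S →ₗ[ZMod p] V := (LinearMap.applyₗ v).comp (S.val.toLinearMap)
    have hevr : Nat.card (Set.range (fun x : S => (x : Module.End (ZMod p) V) v)) = Nat.card (LinearMap.range ev) := by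
      rfl
    rw [hevr]
    set W := LinearMap.range ev with hW
    have hWT : ∀ w ∈ W, T w ∈ W := by
      rintro _ ⟨⟨x, a, rfl⟩, rfl⟩
      refine ⟨⟨aeval T' (X * a), ⟨_, rfl⟩⟩, ?_⟩
      change aeval T' (X * a) v = T (aeval T' a v)
      rw [map_mul, aeval_X]; rfl
    have hvW : v ∈ W := ⟨⟨1, one_mem _⟩, rfl⟩
    obtain ⟨k, hk⟩ : ∃ k, Nat.card W = p ^ k := ⟨Module.finrank (ZMod p) W, by
      rw [Module.natCard_eq_pow_finrank (K := ZMod p) (V := W), Nat.card_zmod]⟩
    have hk1 : 1 < Nat.card W := by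
      rw [Finite.one_lt_card_iff_nontrivial]
      exact ⟨⟨⟨v, hvW⟩, 0, fun h => hv (congrArg Subtype.val h)⟩⟩
    have hk0 : k ≠ 0 := by rintro rfl; rw [hk, pow_zero] at hk1; exact absurd hk1 (lt_irrefl _)
    -- T acts on W without fixed points
    let σ : Equiv.Perm W := Equiv.ofBijective (fun w : W => (⟨T w, hWT w w.2⟩ : W)) (by
      rw [Finite.injective_iff_bijective.symm]
      intro a b h
      have : T (a : V) = T b := congrArg Subtype.val h
      exact Subtype.ext (T.injective this))
    have hσ : ∀ (i : ℕ) (w : W), (((σ ^ i) w : W) : V) = (T ^ i) w := by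
      intro i
      induction i with
      | zero => intro w; rfl
      | succ i ih => intro w; rw [pow_succ, pow_succ]; exact ih (σ w)
    have hσq : σ ^ q = 1 := by
      apply Equiv.ext; intro w; apply Subtype.ext; rw [hσ, hTq]; rfl
    letI : Fintype W := Fintype.ofFinite _
    have hmod := Equiv.Perm.card_compl_support_modEq (σ := σ) (p := q) (n := 1) (by rw [pow_one]; exact hσq)
    have hfx : σ.supportᶜ = {0} := by
      ext w
      rw [Finset.mem_compl, Equiv.Perm.mem_support, not_not, Finset.mem_singleton]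
      constructor
      · intro hw
        apply Subtype.ext
        exact hf w (congrArg Subtype.val hw)
      · rintro rfl
        apply Subtype.ext; change T 0 = 0; exact map_zero T
    rw [hfx, Finset.card_singleton, ← Nat.card_eq_fintype_card, hk] at hmod
    have h1 : (p : ZMod q) ^ k = 1 := by
      have := (ZMod.natCast_eq_natCast_iff _ _ _).mpr hmod
      push_cast at this; exact this.symm
    have h2 : q - 1 ∣ k := hord ▸ orderOf_dvd_of_pow_eq_one h1
    rw [hk]
    exact Nat.pow_le_pow_right hp.pos (Nat.le_of_dvd (Nat.pos_of_ne_zero hk0) h2)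
  have hinj : ∀ x ∈ S, x ≠ 0 → ∀ v : V, v ≠ 0 → x v ≠ 0 := by
    intro x hx hx0 v hv h
    apply hx0
    have h1 := hbig v hv
    have h2 : Nat.card S ≤ Nat.card (Set.range (fun x : S => (x : Module.End (ZMod p) V) v)) := hScard.trans h1
    have h3 : Function.Injective (Set.rangeFactorization (fun x : S => (x : Module.End (ZMod p) V) v)) := by
      have h4 : Function.Surjective (Set.rangeFactorization (fun x : S => (x : Module.End (ZMod p) V) v)) :=
        Set.rangeFactorization_surjective
      have h5 : Nat.card S = Nat.card (Set.range (fun x : S => (x : Module.End (ZMod p) V) v)) :=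
        le_antisymm h2 (Nat.card_le_card_of_surjective _ h4)
      exact ((Nat.bijective_iff_surjective_and_card _).mpr ⟨h4, h5⟩).1
    have h4 : (⟨x, hx⟩ : S) = 0 := by
      apply h3
      apply Subtype.ext
      change x v = (0 : Module.End (ZMod p) V) v
      rw [h]; rfl
    exact congrArg Subtype.val h4
  obtain ⟨F, i1, i2, i3, θ, hθ⟩ := field_of S hcomm hinj
  obtain ⟨t, ht⟩ := (hθ T').mp ⟨X, aeval_X T'⟩
  refine ⟨F, i1, i2, i3, θ, t, fun v => by rw [ht]; rfl, ?_⟩
  apply θ.injective
  rw [map_pow, ht, hT'q, map_one]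

theorem back_trans (T : V ≃ₗ[ZMod p] V) (hTq : T ^ q = 1) (hf : ∀ v, T v = v → v = 0)
    (hord : orderOf (p : ZMod q) = q - 1) (v w : V) (hv : v ≠ 0) (hw : w ≠ 0) :
    ∃ α : V ≃+ V, α v = w ∧ ∀ u, α (T u) = T (α u) := by
  obtain ⟨F, _, _, _, θ, t, ht, htq⟩ := exists_F T hTq hf hord
  letI : Module F V := Module.compHom V θ
  have hsm : ∀ (a : F) (v : V), a • v = θ a v := fun _ _ => rfl
  have : Module.Finite F V := Module.Finite.of_finite
  let f : (Submodule.span F {v}) ≃ₗ[F] (Submodule.span F {w}) :=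
    (LinearEquiv.toSpanNonzeroSingleton F V v hv).symm.trans (LinearEquiv.toSpanNonzeroSingleton F V w hw)
  obtain ⟨g, hg⟩ := Submodule.exists_linearEquiv_restrict_eq f
  refine ⟨g.toAddEquiv, ?_, ?_⟩
  · have h1 := hg ⟨v, Submodule.mem_span_singleton_self v⟩
    change g v = w
    rw [← h1]
    change ((LinearEquiv.toSpanNonzeroSingleton F V w hw) ((LinearEquiv.toSpanNonzeroSingleton F V v hv).symm ⟨v, _⟩) : V) = w
    rw [LinearEquiv.coord_self, LinearEquiv.toSpanNonzeroSingleton_one]
  · intro u
    change g (T u) = T (g u)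
    rw [← ht, ← ht, ← hsm, ← hsm, map_smul]

theorem back_gal (T : V ≃ₗ[ZMod p] V) (hTq : T ^ q = 1) (hf : ∀ v, T v = v → v = 0)
    (hord : orderOf (p : ZMod q) = q - 1) (hpq : p ≠ q) (i : ℕ) (hi : 0 < i) (hiq : i < q) :
    ∃ α : V ≃+ V, ∀ u, α (T u) = (T ^ i) (α u) := by
  classical
  have hq : q.Prime := Fact.out
  have hp : p.Prime := Fact.out
  obtain ⟨F, _, _, _, θ, t, ht, htq⟩ := exists_F T hTq hf hord
  letI : Module F V := Module.compHom V θ
  have hsm : ∀ (a : F) (v : V), a • v = θ a v := fun _ _ => rfl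
  have : Module.Finite F V := Module.Finite.of_finite
  -- i is a power of p mod q
  obtain ⟨k, hk⟩ : ∃ k : ℕ, (p : ZMod q) ^ k = i := by
    have hp0 : (p : ZMod q) ≠ 0 := by
      have h1 : IsUnit (p : ZMod q) := by
        rw [ZMod.isUnit_iff_coprime]; exact (Nat.coprime_primes hp hq).mpr hpq
      exact h1.ne_zero
    have hi0 : (i : ZMod q) ≠ 0 := by
      rw [Ne, ZMod.natCast_eq_zero_iff]
      intro h; exact absurd (Nat.le_of_dvd hi h) (by omega)
    let u : (ZMod q)ˣ := Units.mk0 _ hp0
    have hu : orderOf u = Nat.card (ZMod q)ˣ := by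
      rw [← orderOf_units, Nat.card_eq_fintype_card, ZMod.card_units]
      exact hord
    have h2 : Units.mk0 _ hi0 ∈ Subgroup.zpowers u := by
      have h3 : Subgroup.zpowers u = ⊤ := by
        apply Subgroup.eq_top_of_card_eq
        rw [Nat.card_zpowers, hu]
      rw [h3]; exact Subgroup.mem_top _
    obtain ⟨k, hk⟩ := mem_powers_iff_mem_zpowers.mpr h2
    refine ⟨k, ?_⟩
    have := congrArg Units.val hk
    simpa [u] using this
  have hti : t ^ (p ^ k) = t ^ i := by
    have h1 : p ^ k % q = i % q := by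
      have h2 : ((p ^ k : ℕ) : ZMod q) = (i : ℕ) := by push_cast; exact hk
      rwa [ZMod.natCast_eq_natCast_iff'] at h2
    have h3 : ∀ n : ℕ, t ^ n = t ^ (n % q) := by
      intro n
      conv_lhs => rw [← Nat.div_add_mod n q, pow_add, pow_mul, htq, one_pow, one_mul]
    rw [h3, h1, ← h3]
  let σ : F ≃+* F := iterateFrobeniusEquiv F p k
  have hσ : σ t = t ^ i := by
    change iterateFrobeniusEquiv F p k t = t ^ i
    rw [iterateFrobeniusEquiv_def, hti]
  let b := Module.finBasis F V
  let α : V ≃+ V := (b.equivFun.toAddEquiv.trans (AddEquiv.piCongrRight (fun _ => σ.toAddEquiv))).trans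
    b.equivFun.symm.toAddEquiv
  have hα : ∀ (a : F) (v : V), α (a • v) = σ a • α v := by
    intro a v
    change b.equivFun.symm (fun j => σ (b.equivFun (a • v) j)) = σ a • b.equivFun.symm (fun j => σ (b.equivFun v j))
    have h1 : (fun j => σ (b.equivFun (a • v) j)) = σ a • (fun j => σ (b.equivFun v j)) := by
      funext j
      rw [map_smul]
      simp only [Pi.smul_apply, smul_eq_mul, map_mul]
    rw [h1, map_smul]
  refine ⟨α, fun u => ?_⟩
  rw [← ht, ← hsm, hα, hσ, hsm, map_pow]
  have : ∀ (j : ℕ) (v : V), (θ t ^ j) v = (T ^ j) v := by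
    intro j
    induction j with
    | zero => intro v; rfl
    | succ j ih =>
      intro v
      rw [pow_succ, pow_succ]
      change (θ t ^ j) (θ t v) = (T ^ j) (T v)
      rw [ht]; exact ih (T v)
  exact this i _

end Cfsg.Agent.H20.Orb3
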