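import Cfsg.Agent.H20_Orb3b
set_option autoImplicit false

/-! multiplicative forms -/
open scoped IsMulCommutative
namespace Cfsg.Agent.H20.Orb3

section abs
variable {p q : ℕ} [Fact p.Prime] [Fact q.Prime] {V : Type*} [AddCommGroup V] [Finite V]

theorem toLin_pow [Module (ZMod p) V] (T : V ≃+ V) (i : ℕ) (v : V) : ((toLin (p := p) T) ^ i) v = (⇑T)^[i] v := by
  induction i generalizing v with
  | zero => rfl
  | succ i ih =>
    rw [pow_succ, Function.iterate_succ_apply]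
    exact ih (T v)

theorem order_eq'' [Module (ZMod p) V] [Nontrivial V] (T : V ≃+ V) (hTq : ∀ v, (⇑T)^[q] v = v)
    (hT1 : ∃ v, T v ≠ v)
    (htr : ∀ v w : V, v ≠ 0 → w ≠ 0 → ∃ (α : V ≃+ V) (i : ℕ), α v = w ∧ ∀ u, α (T u) = (⇑T)^[i] (α u))
    (hgal : ∀ i : ℕ, 0 < i → i < q → ∃ α : V ≃+ V, ∀ u, α (T u) = (⇑T)^[i] (α u)) (hpq : p ≠ q) :
    orderOf (p : ZMod q) = q - 1 := by
  have hconv : ∀ (α : V ≃+ V) (i : ℕ), (∀ u, α (T u) = (⇑T)^[i] (α u)) →
      toLin (p := p) α * toLin (p := p) T = (toLin (p := p) T) ^ i * toLin (p := p) α := by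
    intro α i h
    apply LinearEquiv.ext
    intro v
    change α (T v) = ((toLin (p := p) T) ^ i) (α v)
    rw [toLin_pow, h]
  apply order_eq (toLin (p := p) T)
  · apply LinearEquiv.ext
    intro v
    rw [toLin_pow, hTq]; rfl
  · intro h
    obtain ⟨v, hv⟩ := hT1
    apply hv
    exact congrArg (fun f : V ≃ₗ[ZMod p] V => f v) h
  · intro v w hv hw
    obtain ⟨α, i, h1, h2⟩ := htr v w hv hw
    exact ⟨toLin α, i, h1, hconv α i h2⟩
  · intro i hi hiq
    obtain ⟨α, h2⟩ := hgal i hi hiq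
    exact ⟨toLin α, hconv α i h2⟩
  · exact hpq

theorem order_eq' [Nontrivial V] (hpv : ∀ v : V, p • v = 0) (T : V ≃+ V) (hTq : ∀ v, (⇑T)^[q] v = v)
    (hT1 : ∃ v, T v ≠ v)
    (htr : ∀ v w : V, v ≠ 0 → w ≠ 0 → ∃ (α : V ≃+ V) (i : ℕ), α v = w ∧ ∀ u, α (T u) = (⇑T)^[i] (α u))
    (hgal : ∀ i : ℕ, 0 < i → i < q → ∃ α : V ≃+ V, ∀ u, α (T u) = (⇑T)^[i] (α u)) (hpq : p ≠ q) :
    orderOf (p : ZMod q) = q - 1 := by
  letI : Module (ZMod p) V := AddCommGroup.zmodModule hpv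
  exact order_eq'' T hTq hT1 htr hgal hpq

theorem back_trans'' [Module (ZMod p) V] [Nontrivial V] (T : V ≃+ V) (hTq : ∀ v, (⇑T)^[q] v = v) (hf : ∀ v, T v = v → v = 0)
    (hord : orderOf (p : ZMod q) = q - 1) (v w : V) (hv : v ≠ 0) (hw : w ≠ 0) :
    ∃ α : V ≃+ V, α v = w ∧ ∀ u, α (T u) = T (α u) :=
  back_trans (toLin (p := p) T) (LinearEquiv.ext (fun v => by rw [toLin_pow, hTq]; rfl)) hf hord v w hv hw

theorem back_trans' (hpv : ∀ v : V, p • v = 0) (T : V ≃+ V) (hTq : ∀ v, (⇑T)^[q] v = v) (hf : ∀ v, T v = v → v = 0)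
    (hord : orderOf (p : ZMod q) = q - 1) (v w : V) (hv : v ≠ 0) (hw : w ≠ 0) :
    ∃ α : V ≃+ V, α v = w ∧ ∀ u, α (T u) = T (α u) := by
  letI : Module (ZMod p) V := AddCommGroup.zmodModule hpv
  haveI : Nontrivial V := ⟨⟨v, 0, hv⟩⟩
  exact back_trans'' T hTq hf hord v w hv hw

theorem back_gal'' [Module (ZMod p) V] [Nontrivial V] (T : V ≃+ V) (hTq : ∀ v, (⇑T)^[q] v = v) (hf : ∀ v, T v = v → v = 0)
    (hord : orderOf (p : ZMod q) = q - 1) (hpq : p ≠ q) (i : ℕ) (hi : 0 < i) (hiq : i < q) :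
    ∃ α : V ≃+ V, ∀ u, α (T u) = (⇑T)^[i] (α u) := by
  obtain ⟨α, hα⟩ := back_gal (toLin (p := p) T) (LinearEquiv.ext (fun v => by rw [toLin_pow, hTq]; rfl)) hf hord hpq i hi hiq
  refine ⟨α, fun u => ?_⟩
  rw [← toLin_pow (p := p)]
  exact hα u

theorem back_gal' [Nontrivial V] (hpv : ∀ v : V, p • v = 0) (T : V ≃+ V) (hTq : ∀ v, (⇑T)^[q] v = v) (hf : ∀ v, T v = v → v = 0)
    (hord : orderOf (p : ZMod q) = q - 1) (hpq : p ≠ q) (i : ℕ) (hi : 0 < i) (hiq : i < q) :
    ∃ α : V ≃+ V, ∀ u, α (T u) = (⇑T)^[i] (α u) := by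
  letI : Module (ZMod p) V := AddCommGroup.zmodModule hpv
  exact back_gal'' T hTq hf hord hpq i hi hiq

end abs

variable {G : Type*} [Group G] [Finite G] {p q : ℕ} [Fact p.Prime] [Fact q.Prime] (P : Subgroup G)

/-- restriction of an automorphism -/
noncomputable def restr (α : G ≃* G) (h : ∀ u ∈ P, α u ∈ P) : P ≃* P :=
  MulEquiv.ofBijective
    ({ toFun := fun u => ⟨α u, h u u.2⟩
       map_one' := Subtype.ext (map_one α)
       map_mul' := fun a b => Subtype.ext (map_mul α _ _) } : P →* P)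
    (Finite.injective_iff_bijective.mp (fun a b hab => Subtype.ext (α.injective (congrArg Subtype.val hab))))

theorem restr_apply (α : G ≃* G) (h : ∀ u ∈ P, α u ∈ P) (u : P) : ((restr P α h u : P) : G) = α u := rfl

theorem iter_conj [hPn : P.Normal] (x : G) (i : ℕ) (v : P) :
    ((⇑(MulAut.conjNormal x : P ≃* P))^[i] v : P) = MulAut.conjNormal (x ^ i) v := by
  induction i generalizing v with
  | zero => simp
  | succ i ih =>
    rw [Function.iterate_succ_apply, ih, pow_succ, map_mul]; rfl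

theorem fwd [hPn : P.Normal] (hc : ∀ a ∈ P, ∀ b ∈ P, a * b = b * a) (he : ∀ a ∈ P, a ^ p = 1)
    (hPne : P ≠ ⊥) (x : G) (hxq : x ^ q = 1) (hfpf : ∀ y ∈ P, x * y * x⁻¹ = y → y = 1)
    (htr : ∀ v ∈ P, ∀ w ∈ P, v ≠ 1 → w ≠ 1 → ∃ (α : G ≃* G) (i : ℕ), α v = w ∧ (∀ u ∈ P, α u ∈ P) ∧
      ∀ u ∈ P, α (x * u * x⁻¹) = x ^ i * α u * (x ^ i)⁻¹)
    (hgal : ∀ i, 0 < i → i < q → ∃ α : G ≃* G, (∀ u ∈ P, α u ∈ P) ∧
      ∀ u ∈ P, α (x * u * x⁻¹) = x ^ i * α u * (x ^ i)⁻¹) (hpq : p ≠ q) :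
    orderOf (p : ZMod q) = q - 1 := by
  classical
  haveI : IsMulCommutative P := ⟨⟨fun a b => Subtype.ext (hc a a.2 b b.2)⟩⟩
  have hnt : Nontrivial (Additive P) := by
    have : Nontrivial P := (Subgroup.nontrivial_iff_ne_bot P).mpr hPne
    infer_instance
  have hone : ∀ v : P, v ≠ 1 → (v : G) ≠ 1 := fun v hv h => hv (Subtype.ext h)
  have hconv : ∀ (α : G ≃* G) (h : ∀ u ∈ P, α u ∈ P) (i : ℕ),
      (∀ u ∈ P, α (x * u * x⁻¹) = x ^ i * α u * (x ^ i)⁻¹) → ∀ u : P,
      restr P α h ((MulAut.conjNormal x : P ≃* P) u) = ((⇑(MulAut.conjNormal x : P ≃* P))^[i] (restr P α h u) : P) := by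
    intro α h i hi u
    rw [iter_conj]
    apply Subtype.ext
    exact hi u u.2
  refine order_eq' (p := p) (q := q) (V := Additive P) ?_ (MulEquiv.toAdditive (MulAut.conjNormal x : P ≃* P)) ?_ ?_ ?_ ?_ hpq
  · intro v
    change Additive.ofMul (v.toMul ^ p) = 0
    rw [← ofMul_one]
    congr 1
    exact Subtype.ext (he _ v.toMul.2)
  · intro v
    have h1 := iter_conj P x q v.toMul
    rw [hxq, map_one] at h1
    exact congrArg Additive.ofMul h1
  · obtain ⟨v, hv⟩ := exists_ne (0 : Additive P)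
    refine ⟨v, fun h => hone v.toMul (fun h' => hv (congrArg Additive.ofMul h')) ?_⟩
    apply hfpf _ v.toMul.2
    exact congrArg (fun w : Additive P => (w.toMul : G)) h
  · intro v w hv hw
    obtain ⟨α, i, h1, h2, h3⟩ := htr v.toMul v.toMul.2 w.toMul w.toMul.2
      (hone v.toMul (fun h' => hv (congrArg Additive.ofMul h'))) (hone w.toMul (fun h' => hw (congrArg Additive.ofMul h')))
    refine ⟨MulEquiv.toAdditive (restr P α h2), i, ?_, ?_⟩
    · exact congrArg Additive.ofMul (Subtype.ext h1 : restr P α h2 v.toMul = w.toMul)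
    · intro u
      exact congrArg Additive.ofMul (hconv α h2 i h3 u.toMul)
  · intro i hi hiq
    obtain ⟨α, h2, h3⟩ := hgal i hi hiq
    refine ⟨MulEquiv.toAdditive (restr P α h2), ?_⟩
    intro u
    exact congrArg Additive.ofMul (hconv α h2 i h3 u.toMul)

theorem bwd [hPn : P.Normal] (hc : ∀ a ∈ P, ∀ b ∈ P, a * b = b * a) (he : ∀ a ∈ P, a ^ p = 1)
    (x : G) (hxq : x ^ q = 1) (hfpf : ∀ y ∈ P, x * y * x⁻¹ = y → y = 1)
    (hord : orderOf (p : ZMod q) = q - 1) (hpq : p ≠ q) :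
    (∀ v w : P, v ≠ 1 → w ≠ 1 → ∃ α : P ≃* P, α v = w ∧
      ∀ u : P, (α (MulAut.conjNormal x u) : G) = x * α u * x⁻¹) ∧
    (P ≠ ⊥ → ∀ i, 0 < i → i < q → ∃ α : P ≃* P, ∀ u : P, (α (MulAut.conjNormal x u) : G) = x ^ i * α u * (x ^ i)⁻¹) := by
  classical
  haveI : IsMulCommutative P := ⟨⟨fun a b => Subtype.ext (hc a a.2 b b.2)⟩⟩
  have hpv : ∀ v : Additive P, p • v = 0 := by
    intro v
    change Additive.ofMul (v.toMul ^ p) = 0
    rw [← ofMul_one]
    congr 1
    exact Subtype.ext (he _ v.toMul.2)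
  have hTq : ∀ v : Additive P, (⇑(MulEquiv.toAdditive (MulAut.conjNormal x : P ≃* P)))^[q] v = v := by
    intro v
    have h1 := iter_conj P x q v.toMul
    rw [hxq, map_one] at h1
    exact congrArg Additive.ofMul h1
  have hTf : ∀ v : Additive P, (MulEquiv.toAdditive (MulAut.conjNormal x : P ≃* P)) v = v → v = 0 := by
    intro v hv
    have h1 : v.toMul = 1 := by
      apply Subtype.ext
      apply hfpf _ v.toMul.2
      exact congrArg (fun w : Additive P => (w.toMul : G)) hv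
    exact congrArg Additive.ofMul h1
  refine ⟨?_, ?_⟩
  · intro v w hv1 hw1
    obtain ⟨α, h1, h2⟩ := back_trans' (p := p) (q := q) (V := Additive P) hpv (MulEquiv.toAdditive (MulAut.conjNormal x : P ≃* P)) hTq hTf hord
      (Additive.ofMul v) (Additive.ofMul w)
      (fun h => hv1 (congrArg Additive.toMul h))
      (fun h => hw1 (congrArg Additive.toMul h))
    refine ⟨MulEquiv.toAdditive.symm α, ?_, ?_⟩
    · exact congrArg Additive.toMul h1
    · intro u
      exact congrArg (fun w : Additive P => (w.toMul : G)) (h2 (Additive.ofMul u))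
  · intro hPne i hi hiq
    have hnt : Nontrivial (Additive P) := by
      have : Nontrivial P := (Subgroup.nontrivial_iff_ne_bot P).mpr hPne
      infer_instance
    obtain ⟨α, h2⟩ := back_gal' (p := p) (q := q) (V := Additive P) hpv (MulEquiv.toAdditive (MulAut.conjNormal x : P ≃* P)) hTq hTf hord hpq i hi hiq
    refine ⟨MulEquiv.toAdditive.symm α, ?_⟩
    intro u
    have h3 := congrArg (fun w : Additive P => (w.toMul : G)) (h2 (Additive.ofMul u))
    have h4 := congrArg (fun w : P => (w : G)) (iter_conj P x i (α (Additive.ofMul u)).toMul)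
    exact h3.trans h4

/-- gluing automorphisms -/
theorem glue [hPn : P.Normal] (x : G) (hK : P.IsComplement' (Subgroup.zpowers x)) (α : P ≃* P) (i : ℕ)
    (hi : (Nat.card (Subgroup.zpowers x)).Coprime i)
    (hα : ∀ u : P, (α (MulAut.conjNormal x u) : G) = x ^ i * α u * (x ^ i)⁻¹) :
    ∃ Φ : G ≃* G, (∀ u : P, Φ u = α u) ∧ Φ x = x ^ i := by
  classical
  set K := Subgroup.zpowers x with hKdef
  letI : CommGroup K := { (inferInstance : Group K) with
    mul_comm := fun a b => by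
      obtain ⟨m, hm⟩ := a.2
      obtain ⟨n, hn⟩ := b.2
      apply Subtype.ext
      change (a : G) * b = b * a
      rw [← hm, ← hn]
      change x ^ m * x ^ n = x ^ n * x ^ m
      rw [← zpow_add, ← zpow_add, add_comm] }
  let fg : K ≃* K := MulEquiv.ofBijective (powMonoidHom i : K →* K) (powCoprime hi).bijective
  have hfg : ∀ k : K, ((fg k : K) : G) = (k : G) ^ i := fun k => rfl
  let e := SemidirectProduct.mulEquivSubgroup hK
  have he : ∀ z, e z = (z.left : G) * z.right := fun z => rfl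
  have hcompat : ∀ (g : K) (u : P), (α (MulAut.conjNormal (g : G) u) : G) = (g : G) ^ i * α u * ((g : G) ^ i)⁻¹ := by
    intro g
    obtain ⟨n, hn⟩ := mem_powers_iff_mem_zpowers.mpr g.2
    rw [← hn]
    clear hn
    change ∀ u : P, (α (MulAut.conjNormal (x ^ n) u) : G) = (x ^ n) ^ i * α u * ((x ^ n) ^ i)⁻¹
    induction n with
    | zero => intro u; simp
    | succ n ih =>
      intro u
      rw [pow_succ, map_mul]
      change (α (MulAut.conjNormal (x ^ n) (MulAut.conjNormal x u)) : G) = _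
      rw [ih, hα, (Commute.pow_left (Commute.refl x) n).mul_pow]
      group
  let c : P ⋊[_] K ≃* P ⋊[_] K := SemidirectProduct.congr (φ₁ := (P.normalizerMonoidHom).comp (Subgroup.inclusion (P.normalizer_eq_top ▸ le_top)))
    (φ₂ := (P.normalizerMonoidHom).comp (Subgroup.inclusion (P.normalizer_eq_top ▸ le_top))) α fg (by
      intro g
      ext u
      exact hcompat g u)
  refine ⟨(e.symm.trans c).trans e, ?_, ?_⟩
  · intro u
    have h1 : e (SemidirectProduct.inl u) = u := by rw [he]; simp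
    have h2 : e.symm (u : G) = SemidirectProduct.inl u := by rw [MulEquiv.symm_apply_eq, h1]
    change e (c (e.symm u)) = _
    rw [h2, he]
    change ((α u : P) : G) * ((fg 1 : K) : G) = _
    rw [map_one]; simp
  · have hx : x ∈ K := Subgroup.mem_zpowers x
    have h1 : e (SemidirectProduct.inr ⟨x, hx⟩) = x := by rw [he]; simp
    have h2 : e.symm x = SemidirectProduct.inr ⟨x, hx⟩ := by rw [MulEquiv.symm_apply_eq, h1]
    change e (c (e.symm x)) = _
    rw [h2, he]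
    change ((α 1 : P) : G) * ((fg ⟨x, hx⟩ : K) : G) = _
    rw [map_one, hfg]; simp

end Cfsg.Agent.H20.Orb3
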