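import Cfsg.Agent.H20_Orb3c
import Cfsg.Prelude.Def_Transfer
import Cfsg.Agent.H1_Hall
import Cfsg.Agent.H1_Fpf
import Cfsg.Agent.H3_Burnside
set_option autoImplicit false

/-! groups with exactly three automorphism orbits -/
namespace Cfsg.Agent.H20.Orb3

variable {G : Type*} [Group G] [Finite G]

/-- automorphism-orbit relation -/
theorem mk_eq_iff (a b : G) : (Quotient.mk'' a : MulAction.orbitRel.Quotient (MulAut G) G) = Quotient.mk'' b ↔
    ∃ α : MulAut G, α b = a := by
  rw [Quotient.eq'', MulAction.orbitRel_apply, MulAction.mem_orbit_iff]; rfl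

/-- three orbits: consequences -/
theorem three_orbits (h3 : Nat.card (MulAction.orbitRel.Quotient (MulAut G) G) = 3) {p q : ℕ} (hp : p.Prime) (hq : q.Prime)
    (hpq : p ≠ q) {a b : G} (ha : orderOf a = p) (hb : orderOf b = q) (g : G) :
    g = 1 ∨ (∃ α : MulAut G, α a = g) ∨ (∃ α : MulAut G, α b = g) := by
  classical
  have hfin : Finite (MulAction.orbitRel.Quotient (MulAut G) G) := Nat.finite_of_card_ne_zero (by rw [h3]; norm_num)
  let f : Fin 3 → MulAction.orbitRel.Quotient (MulAut G) G := ![Quotient.mk'' 1, Quotient.mk'' a, Quotient.mk'' b]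
  have key : ∀ x y : G, (Quotient.mk'' x : MulAction.orbitRel.Quotient (MulAut G) G) = Quotient.mk'' y → orderOf x = orderOf y := by
    intro x y h
    obtain ⟨α, hα⟩ := (mk_eq_iff x y).mp h
    rw [← hα]; exact MulEquiv.orderOf_eq α y
  have h1 : orderOf (1 : G) = 1 := orderOf_one
  have hf : Function.Injective f := by
    intro i j hij
    fin_cases i <;> fin_cases j <;> first | rfl | (exfalso; have := key _ _ hij; simp only [ha, hb, h1] at this; first | exact hp.one_lt.ne this | exact hp.one_lt.ne' this | exact hq.one_lt.ne this | exact hq.one_lt.ne' this | exact hpq this | exact hpq this.symm)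
  have hb' : Function.Bijective f := by
    refine (Nat.bijective_iff_injective_and_card f).mpr ⟨hf, ?_⟩
    rw [h3, Nat.card_fin]
  obtain ⟨i, hi⟩ := hb'.2 (Quotient.mk'' g)
  fin_cases i
  · left
    obtain ⟨α, hα⟩ := (mk_eq_iff 1 g).mp hi
    have : α g = α 1 := by rw [hα, map_one]
    exact α.injective this
  · right; left
    obtain ⟨α, hα⟩ := (mk_eq_iff g a).mp hi.symm
    exact ⟨α, hα⟩
  · right; right
    obtain ⟨α, hα⟩ := (mk_eq_iff g b).mp hi.symm
    exact ⟨α, hα⟩


theorem forward_aux (h3 : Nat.card (MulAction.orbitRel.Quotient (MulAut G) G) = 3) {p q : ℕ} [hp : Fact p.Prime] [hq : Fact q.Prime]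
    (hpq : p ≠ q) {a b : G} (ha : orderOf a = p) (hb : orderOf b = q) {N : Subgroup G} (hNn : N.Normal)
    (hNp : IsPGroup p N) (hN : N ≠ ⊥) :
    ∃ n : ℕ, 1 ≤ n ∧ Nat.card G = p ^ n * q ∧
      (∀ P : Sylow p G, (P : Subgroup G).Normal ∧ Cfsg.IsElementaryAbelian p (P : Subgroup G)) ∧
      orderOf (p : ZMod q) = q - 1 ∧
      ∀ x y : G, orderOf x = q → orderOf y = p → x * y * x⁻¹ ≠ y := by
  classical
  have hpp : p.Prime := Fact.out
  have hqp : q.Prime := Fact.out
  have h3o := three_orbits h3 hpp hqp hpq ha hb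
  have hord : ∀ g : G, orderOf g = 1 ∨ orderOf g = p ∨ orderOf g = q := by
    intro g
    rcases h3o g with rfl | ⟨α, rfl⟩ | ⟨α, rfl⟩
    · left; exact orderOf_one
    · right; left; rw [MulEquiv.orderOf_eq α, ha]
    · right; right; rw [MulEquiv.orderOf_eq α, hb]
  have hsame : ∀ x y : G, orderOf x = orderOf y → ∃ α : MulAut G, α x = y := by
    intro x y hxy
    rcases h3o x with rfl | ⟨α, rfl⟩ | ⟨α, rfl⟩ <;> rcases h3o y with rfl | ⟨β, rfl⟩ | ⟨β, rfl⟩
    · exact ⟨1, rfl⟩
    · rw [orderOf_one, MulEquiv.orderOf_eq β, ha] at hxy; exact absurd hxy hpp.one_lt.ne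
    · rw [orderOf_one, MulEquiv.orderOf_eq β, hb] at hxy; exact absurd hxy hqp.one_lt.ne
    · rw [orderOf_one, MulEquiv.orderOf_eq α, ha] at hxy; exact absurd hxy.symm hpp.one_lt.ne
    · exact ⟨β * α⁻¹, by change β (α⁻¹ (α a)) = β a; rw [show α⁻¹ (α a) = (α⁻¹ * α) a from rfl, inv_mul_cancel]; rfl⟩
    · rw [MulEquiv.orderOf_eq α, MulEquiv.orderOf_eq β, ha, hb] at hxy; exact absurd hxy hpq
    · rw [orderOf_one, MulEquiv.orderOf_eq α, hb] at hxy; exact absurd hxy.symm hqp.one_lt.ne
    · rw [MulEquiv.orderOf_eq α, MulEquiv.orderOf_eq β, ha, hb] at hxy; exact absurd hxy.symm hpq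
    · exact ⟨β * α⁻¹, by change β (α⁻¹ (α b)) = β b; rw [show α⁻¹ (α b) = (α⁻¹ * α) b from rfl, inv_mul_cancel]; rfl⟩
  -- an element of order p in N
  obtain ⟨c, hcN, hc⟩ : ∃ c ∈ N, orderOf c = p := by
    obtain ⟨c, hcN, hc1⟩ := (Subgroup.bot_or_exists_ne_one N).resolve_left hN
    refine ⟨c, hcN, ?_⟩
    obtain ⟨k, hk⟩ := (IsPGroup.iff_orderOf.mp hNp) ⟨c, hcN⟩
    rw [← Subgroup.orderOf_coe] at hk
    change orderOf c = p ^ k at hk
    rcases hord c with h | h | h
    · exact absurd (orderOf_eq_one_iff.mp h) hc1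
    · exact h
    · exfalso
      rw [h] at hk
      have h1 : p ∣ q ^ 1 := by
        rw [pow_one, hk]
        apply dvd_pow_self
        rintro rfl
        rw [pow_zero] at hk; exact hqp.one_lt.ne' hk
      exact hpq ((Nat.prime_dvd_prime_iff_eq hpp hqp).mp (by rwa [pow_one] at h1))
  set P := Cfsg.pCore p G with hP
  have hPn : P.Normal := Cfsg.Agent.H1.Nilp.pCore_normal p
  have hPp : IsPGroup p P := Cfsg.Agent.H1.Nilp.pCore_isPGroup p
  have hmem : ∀ g : G, g ∈ P ↔ g ^ p = 1 := by
    intro g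
    constructor
    · intro hg
      obtain ⟨k, hk⟩ := (IsPGroup.iff_orderOf.mp hPp) ⟨g, hg⟩
      rw [← Subgroup.orderOf_coe] at hk
      change orderOf g = p ^ k at hk
      rcases hord g with h | h | h
      · rw [orderOf_eq_one_iff.mp h, one_pow]
      · rw [← h]; exact pow_orderOf_eq_one g
      · exfalso
        rw [h] at hk
        have h1 : p ∣ q := by
          rw [hk]
          apply dvd_pow_self
          rintro rfl
          rw [pow_zero] at hk; exact hqp.one_lt.ne' hk
        exact hpq ((Nat.prime_dvd_prime_iff_eq hpp hqp).mp h1)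
    · intro hg
      by_cases hg1 : g = 1
      · rw [hg1]; exact one_mem _
      · have hgo : orderOf g = p := orderOf_eq_prime hg hg1
        obtain ⟨α, hα⟩ := hsame c g (by rw [hc, hgo])
        have h1 : N.map (α : G →* G) ≤ P := by
          apply Cfsg.Agent.H1.Nilp.le_pCore (hNn.map _ α.surjective)
          exact hNp.map _
        apply h1
        exact ⟨c, hcN, hα⟩
  have hPne : P ≠ ⊥ := by
    intro h
    have h1 : c ∈ P := (hmem c).mpr (by rw [← hc]; exact pow_orderOf_eq_one c)
    rw [h, Subgroup.mem_bot] at h1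
    rw [h1, orderOf_one] at hc
    exact hpp.one_lt.ne hc
  have he : ∀ x ∈ P, x ^ p = 1 := fun x hx => (hmem x).mp hx
  have hPα : ∀ (α : MulAut G) (u : G), u ∈ P → α u ∈ P := by
    intro α u hu
    rw [hmem, ← map_pow, he u hu, map_one]
  -- P is abelian
  have hcm : ∀ x ∈ P, ∀ y ∈ P, x * y = y * x := by
    have hnt : Nontrivial P := (Subgroup.nontrivial_iff_ne_bot P).mpr hPne
    have hz : Nontrivial (Subgroup.center P) := hPp.center_nontrivial
    obtain ⟨z, hz1⟩ := exists_ne (1 : Subgroup.center P)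
    have hz1' : ((z : P) : G) ≠ 1 := fun h => hz1 (Subtype.ext (Subtype.ext h))
    have hzo : orderOf ((z : P) : G) = p := orderOf_eq_prime (he _ (z : P).2) hz1'
    have hcen : ∀ x ∈ P, ∀ y ∈ P, x ≠ 1 → x * y = y * x := by
      intro x hx y hy hx1
      have hxo : orderOf x = p := orderOf_eq_prime (he x hx) hx1
      obtain ⟨α, hα⟩ := hsame ((z : P) : G) x (by rw [hzo, hxo])
      have h1 : α⁻¹ y ∈ P := hPα _ _ hy
      have h2 := Subgroup.mem_center_iff.mp z.2 ⟨α⁻¹ y, h1⟩
      have h3 : α⁻¹ y * ((z : P) : G) = ((z : P) : G) * α⁻¹ y := congrArg Subtype.val h2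
      have h4 := congrArg α h3
      rw [map_mul, map_mul, hα, show α (α⁻¹ y) = (α * α⁻¹) y from rfl, mul_inv_cancel] at h4
      exact h4.symm
    intro x hx y hy
    by_cases hx1 : x = 1
    · rw [hx1, one_mul, mul_one]
    · exact hcen x hx y hy hx1
  -- no commuting p and q elements
  have hnc : ∀ x y : G, orderOf x = q → orderOf y = p → x * y * x⁻¹ ≠ y := by
    intro x y hx hy h
    have hcom : Commute x y := by
      change x * y = y * x
      calc x * y = (x * y * x⁻¹) * x := by group
        _ = y * x := by rw [h]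
    have h1 := hcom.orderOf_mul_eq_mul_orderOf_of_coprime (by
      rw [hx, hy]; exact (Nat.coprime_primes hqp hpp).mpr hpq.symm)
    rw [hx, hy] at h1
    rcases hord (x * y) with h2 | h2 | h2
    · rw [h1] at h2
      have := hqp.one_lt
      have := hpp.one_lt
      nlinarith
    · rw [h1] at h2
      have := hqp.one_lt
      have := hpp.one_lt
      nlinarith
    · rw [h1] at h2
      have := hqp.one_lt
      have := hpp.one_lt
      nlinarith
  -- order of G
  have hprimes : ∀ r : ℕ, r.Prime → r ∣ Nat.card G → r = p ∨ r = q := by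
    intro r hr hrG
    have : Fact r.Prime := ⟨hr⟩
    obtain ⟨x, hx⟩ := exists_prime_orderOf_dvd_card' (G := G) r hrG
    rcases hord x with h | h | h
    · rw [hx] at h; exact absurd h hr.one_lt.ne'
    · left; rw [← hx, h]
    · right; rw [← hx, h]
  have hSylP : ∀ S : Sylow p G, (S : Subgroup G) = P := by
    intro S
    apply le_antisymm
    · intro x hx
      rw [hmem]
      obtain ⟨k, hk⟩ := (IsPGroup.iff_orderOf.mp S.2) ⟨x, hx⟩
      rw [← Subgroup.orderOf_coe] at hk
      change orderOf x = p ^ k at hk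
      rcases hord x with h | h | h
      · rw [orderOf_eq_one_iff.mp h, one_pow]
      · rw [← h]; exact pow_orderOf_eq_one x
      · exfalso
        rw [h] at hk
        have h1 : p ∣ q := by
          rw [hk]
          apply dvd_pow_self
          rintro rfl
          rw [pow_zero] at hk; exact hqp.one_lt.ne' hk
        exact hpq ((Nat.prime_dvd_prime_iff_eq hpp hqp).mp h1)
    · exact hPp.le_sylow_of_normal S
  have hq2 : ¬ q ^ 2 ∣ Nat.card G := by
    intro hdiv
    obtain ⟨A, hA⟩ := Sylow.exists_subgroup_card_pow_prime q hdiv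
    have hAc : IsMulCommutative A := ⟨⟨IsPGroup.commutative_of_card_eq_prime_sq hA⟩⟩
    have hPc : IsMulCommutative P := ⟨⟨fun x y => Subtype.ext (hcm x x.2 y y.2)⟩⟩
    have hcyc : IsCyclic A := by
      apply Cfsg.Agent.H1.Fpf.isCyclic_of_fpf_comm A P hPne
      · rw [Subgroup.normalizer_eq_top]; exact le_top
      · intro x hx hx1
        rw [eq_bot_iff]
        intro y hy
        rw [Subgroup.mem_bot]
        by_contra hy1
        have hyo : orderOf y = p := orderOf_eq_prime (he y hy.1) hy1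
        have hxo : orderOf x = q := by
          rcases hord x with h | h | h
          · exact absurd (orderOf_eq_one_iff.mp h) hx1
          · exfalso
            have h1 : orderOf x ∣ Nat.card A := Subgroup.orderOf_dvd_natCard A hx
            rw [h, hA] at h1
            exact hpq ((Nat.prime_dvd_prime_iff_eq hpp hqp).mp (hpp.dvd_of_dvd_pow h1))
          · exact h
        apply hnc x y hxo hyo
        have h2 := Subgroup.mem_centralizer_iff.mp hy.2 x rfl
        rw [h2]; group
    obtain ⟨g, hg⟩ := hcyc.exists_generator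
    have h1 : orderOf g = q ^ 2 := by
      rw [← hA]
      exact orderOf_eq_card_of_forall_mem_zpowers hg
    rw [← Subgroup.orderOf_coe] at h1
    have := hqp.one_lt
    rcases hord (g : G) with h | h | h
    · rw [h1] at h; nlinarith
    · rw [h1] at h
      have h2 : q ∣ p := by rw [← h]; exact dvd_pow_self q (by norm_num)
      exact hpq ((Nat.prime_dvd_prime_iff_eq hqp hpp).mp h2).symm
    · rw [h1] at h; nlinarith
  obtain ⟨n, hn1, hcard⟩ : ∃ n : ℕ, 1 ≤ n ∧ Nat.card G = p ^ n * q := by
    have hG0 : Nat.card G ≠ 0 := Nat.card_pos.ne'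
    have h1 : q ∣ Nat.card G := hb ▸ orderOf_dvd_natCard b
    have h2 : p ∣ Nat.card G := ha ▸ orderOf_dvd_natCard a
    refine ⟨(Nat.card G).factorization p, ?_, ?_⟩
    · exact (hpp.dvd_iff_one_le_factorization hG0).mp h2
    · have hfq : (Nat.card G).factorization q = 1 := by
        apply le_antisymm
        · by_contra hlt
          push Not at hlt
          exact hq2 ((hqp.pow_dvd_iff_le_factorization hG0).mpr hlt)
        · exact (hqp.dvd_iff_one_le_factorization hG0).mp h1
      apply Nat.eq_of_factorization_eq hG0 (mul_ne_zero (pow_ne_zero _ hpp.ne_zero) hqp.ne_zero)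
      intro r
      rw [Nat.factorization_mul (pow_ne_zero _ hpp.ne_zero) hqp.ne_zero, hpp.factorization_pow, hqp.factorization,
        Finsupp.add_apply, Finsupp.single_apply, Finsupp.single_apply]
      by_cases hrp : p = r
      · subst hrp; rw [if_pos rfl, if_neg hpq.symm, add_zero]
      · rw [if_neg hrp, zero_add]
        by_cases hrq : q = r
        · subst hrq; rw [if_pos rfl, hfq]
        · rw [if_neg hrq]
          by_cases hr : r.Prime
          · rw [Nat.factorization_eq_zero_iff]
            right; left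
            intro hdvd
            rcases hprimes r hr hdvd with h | h
            · exact hrp h.symm
            · exact hrq h.symm
          · exact Nat.factorization_eq_zero_of_not_prime _ hr
  refine ⟨n, hn1, hcard, ?_, ?_, hnc⟩
  · intro S
    rw [hSylP S]
    exact ⟨hPn, ⟨⟨fun x y => Subtype.ext (hcm x x.2 y y.2)⟩⟩, he⟩
  · -- order of p modulo q
    have hKP : ∀ g : G, ∃ (u : G) (i : ℕ), u ∈ P ∧ g = u * b ^ i := by
      have hcop : (Nat.card P).Coprime (Nat.card (Subgroup.zpowers b)) := by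
        rw [Nat.card_zpowers, hb]
        obtain ⟨k, hk⟩ := IsPGroup.iff_card.mp hPp
        rw [hk]
        exact Nat.Coprime.pow_left _ ((Nat.coprime_primes hpp hqp).mpr hpq)
      have hPcard : Nat.card P = p ^ n := by
        obtain ⟨S⟩ : Nonempty (Sylow p G) := inferInstance
        have h1 := S.card_eq_multiplicity
        rw [hSylP S] at h1
        rw [h1, hcard]
        congr 1
        rw [Nat.factorization_mul (pow_ne_zero _ hpp.ne_zero) hqp.ne_zero, hpp.factorization_pow, hqp.factorization,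
          Finsupp.add_apply, Finsupp.single_apply, Finsupp.single_apply, if_pos rfl, if_neg hpq.symm, add_zero]
      have hcomp : P.IsComplement' (Subgroup.zpowers b) := by
        apply Subgroup.isComplement'_of_coprime _ hcop
        rw [hPcard, Nat.card_zpowers, hb, hcard]
      intro g
      obtain ⟨⟨u, k⟩, huk⟩ := hcomp.2 g
      obtain ⟨i, hi⟩ := mem_powers_iff_mem_zpowers.mpr k.2
      refine ⟨u, i, u.2, ?_⟩
      have h1 : (u : G) * k = g := huk
      have h2 : b ^ i = (k : G) := hi
      rw [← h1, h2]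
    have hconj : ∀ (α : MulAut G) (u : G) (i : ℕ), u ∈ P → α b = u * b ^ i → ∀ v ∈ P,
        α (b * v * b⁻¹) = b ^ i * α v * (b ^ i)⁻¹ := by
      intro α u i hu hαb v hv
      rw [map_mul, map_mul, map_inv, hαb]
      have h1 : b ^ i * α v * (b ^ i)⁻¹ ∈ P := hPn.conj_mem _ (hPα α v hv) _
      have h2 := hcm u hu _ h1
      calc u * b ^ i * α v * (u * b ^ i)⁻¹ = (u * (b ^ i * α v * (b ^ i)⁻¹)) * u⁻¹ := by group
        _ = _ := by rw [h2]; group
    apply fwd (p := p) (q := q) P hcm he hPne b (by rw [← hb]; exact pow_orderOf_eq_one b)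
    · intro y hy h
      by_contra hy1
      exact hnc b y hb (orderOf_eq_prime (he y hy) hy1) h
    · intro v hv w hw hv1 hw1
      obtain ⟨α, hα⟩ := hsame v w (by rw [orderOf_eq_prime (he v hv) hv1, orderOf_eq_prime (he w hw) hw1])
      obtain ⟨u, i, hu, hui⟩ := hKP (α b)
      exact ⟨α, i, hα, fun u hu => hPα α u hu, hconj α u i hu hui⟩
    · intro i hi hiq
      have h1 : orderOf (b ^ i) = q := by
        apply orderOf_eq_prime
        · rw [← pow_mul, mul_comm, pow_mul, ← hb, pow_orderOf_eq_one, one_pow]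
        · intro h
          have := orderOf_dvd_of_pow_eq_one h
          rw [hb] at this
          exact absurd (Nat.le_of_dvd hi this) (by omega)
      obtain ⟨α, hα⟩ := hsame b (b ^ i) (by rw [h1, hb])
      refine ⟨α, fun u hu => hPα α u hu, hconj α 1 i (one_mem _) (by rw [one_mul, hα])⟩
    · exact hpq


theorem backward {p q n : ℕ} [hp : Fact p.Prime] [hq : Fact q.Prime] (hpq : p ≠ q) (hn : 1 ≤ n)
    (hcard : Nat.card G = p ^ n * q)
    (hS : ∀ P : Sylow p G, (P : Subgroup G).Normal ∧ Cfsg.IsElementaryAbelian p (P : Subgroup G))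
    (hord : orderOf (p : ZMod q) = q - 1)
    (hnc : ∀ x y : G, orderOf x = q → orderOf y = p → x * y * x⁻¹ ≠ y) :
    Nat.card (MulAction.orbitRel.Quotient (MulAut G) G) = 3 := by
  classical
  have hpp : p.Prime := Fact.out
  have hqp : q.Prime := Fact.out
  obtain ⟨S⟩ : Nonempty (Sylow p G) := inferInstance
  set P : Subgroup G := (S : Subgroup G) with hP
  obtain ⟨hPn, hPc, he⟩ := hS S
  have hcm : ∀ x ∈ P, ∀ y ∈ P, x * y = y * x := by
    intro x hx y hy
    exact congrArg Subtype.val (hPc.is_comm.comm ⟨x, hx⟩ ⟨y, hy⟩)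
  obtain ⟨b, hb⟩ := exists_prime_orderOf_dvd_card' (G := G) q (by rw [hcard]; exact dvd_mul_left _ _)
  have hPcard : Nat.card P = p ^ n := by
    have h1 := S.card_eq_multiplicity
    rw [h1, hcard]
    congr 1
    rw [Nat.factorization_mul (pow_ne_zero _ hpp.ne_zero) hqp.ne_zero, hpp.factorization_pow, hqp.factorization,
      Finsupp.add_apply, Finsupp.single_apply, Finsupp.single_apply, if_pos rfl, if_neg hpq.symm, add_zero]
  have hPne : P ≠ ⊥ := by
    intro h
    rw [h, Subgroup.card_bot] at hPcard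
    exact (Nat.one_lt_pow (by omega : n ≠ 0) hpp.one_lt).ne hPcard
  have hcop : (Nat.card P).Coprime (Nat.card (Subgroup.zpowers b)) := by
    rw [Nat.card_zpowers, hb, hPcard]
    exact Nat.Coprime.pow_left _ ((Nat.coprime_primes hpp hqp).mpr hpq)
  have hcomp : P.IsComplement' (Subgroup.zpowers b) := by
    apply Subgroup.isComplement'_of_coprime _ hcop
    rw [hPcard, Nat.card_zpowers, hb, hcard]
  have hKP : ∀ g : G, ∃ (u : G) (i : ℕ), u ∈ P ∧ i < q ∧ g = u * b ^ i := by
    intro g
    obtain ⟨⟨u, k⟩, huk⟩ := hcomp.2 g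
    obtain ⟨i, hi⟩ := mem_powers_iff_mem_zpowers.mpr k.2
    have h1 : (u : G) * k = g := huk
    have h2 : b ^ i = (k : G) := hi
    refine ⟨u, i % q, u.2, Nat.mod_lt _ hqp.pos, ?_⟩
    rw [← h1, ← h2, ← hb, pow_mod_orderOf]
  have hmem : ∀ g : G, orderOf g = p → g ∈ P := by
    intro g hg
    have h1 : IsPGroup p (Subgroup.zpowers g) := by
      apply IsPGroup.of_card (n := 1)
      rw [Nat.card_zpowers, hg, pow_one]
    obtain ⟨S', hS'⟩ := h1.exists_le_sylow
    have h2 : (S' : Subgroup G) = S := by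
      have := (hS S).1
      have h3 := Sylow.unique_of_normal S (hS S).1
      rw [h3.uniq S']
      exact congrArg _ (h3.uniq S).symm
    rw [hP, ← h2]
    exact hS' (Subgroup.mem_zpowers g)
  have hfpf : ∀ (x : G), orderOf x = q → ∀ y ∈ P, x * y * x⁻¹ = y → y = 1 := by
    intro x hx y hy h
    by_contra hy1
    exact hnc x y hx (orderOf_eq_prime (he y hy) hy1) h
  have hbq : b ^ q = 1 := by rw [← hb]; exact pow_orderOf_eq_one b
  have hbi : ∀ i, 0 < i → i < q → orderOf (b ^ i) = q := by
    intro i hi hiq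
    apply orderOf_eq_prime
    · rw [← pow_mul, mul_comm, pow_mul, hbq, one_pow]
    · intro h
      have := orderOf_dvd_of_pow_eq_one h
      rw [hb] at this
      exact absurd (Nat.le_of_dvd hi this) (by omega)
  obtain ⟨H1, H2⟩ := bwd (p := p) (q := q) P hcm he b hbq (hfpf b hb) hord hpq
  have hcopi : ∀ i, 0 < i → i < q → (Nat.card (Subgroup.zpowers b)).Coprime i := by
    intro i hi hiq
    rw [Nat.card_zpowers, hb]
    exact Nat.coprime_of_lt_prime hi.ne' hiq hqp
  -- transitivity on P
  have T1 : ∀ v w : G, orderOf v = p → orderOf w = p → ∃ α : MulAut G, α v = w := by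
    intro v w hv hw
    have hv1 : (⟨v, hmem v hv⟩ : P) ≠ 1 := by
      intro h
      have : v = 1 := congrArg Subtype.val h
      rw [this, orderOf_one] at hv; exact hpp.one_lt.ne hv
    have hw1 : (⟨w, hmem w hw⟩ : P) ≠ 1 := by
      intro h
      have : w = 1 := congrArg Subtype.val h
      rw [this, orderOf_one] at hw; exact hpp.one_lt.ne hw
    obtain ⟨α, h1, h2⟩ := H1 _ _ hv1 hw1
    obtain ⟨Φ, hΦ1, -⟩ := glue P b hcomp α 1 (Nat.coprime_one_right _) (by intro u; rw [pow_one]; exact h2 u)
    refine ⟨Φ, ?_⟩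
    have := hΦ1 ⟨v, hmem v hv⟩
    rw [h1] at this
    exact this
  -- transitivity outside P
  have T2 : ∀ g : G, g ∉ P → ∃ α : MulAut G, α b = g := by
    intro g hg
    obtain ⟨u, i, hu, hiq, hgi⟩ := hKP g
    have hi0 : 0 < i := by
      rcases Nat.eq_zero_or_pos i with h | h
      · exfalso; apply hg; rw [hgi, h, pow_zero, mul_one]; exact hu
      · exact h
    obtain ⟨α, h2⟩ := H2 hPne i hi0 hiq
    obtain ⟨Φ, -, hΦ⟩ := glue P b hcomp α i (hcopi i hi0 hiq) h2
    -- conjugation by P
    have hinj : Function.Injective (fun v : P => (v * ((MulAut.conjNormal (b ^ i) v : P))⁻¹ : P)) := by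
      intro v w h
      have h1 : (v : G) * (b ^ i * v * (b ^ i)⁻¹)⁻¹ = w * (b ^ i * w * (b ^ i)⁻¹)⁻¹ := congrArg Subtype.val h
      have h3 : ((w : G)⁻¹ * v : G) = 1 := by
        apply hfpf (b ^ i) (hbi i hi0 hiq) _ (mul_mem (inv_mem w.2) v.2)
        have e1 : b ^ i * ((w : G)⁻¹ * v) * (b ^ i)⁻¹ = (b ^ i * w * (b ^ i)⁻¹)⁻¹ * (b ^ i * v * (b ^ i)⁻¹) := by group
        rw [e1]
        have e2 : (w : G)⁻¹ * v = (b ^ i * w * (b ^ i)⁻¹)⁻¹ * (b ^ i * v * (b ^ i)⁻¹) := by
          calc (w : G)⁻¹ * v = (w : G)⁻¹ * (v * (b ^ i * v * (b ^ i)⁻¹)⁻¹) * (b ^ i * v * (b ^ i)⁻¹) := by group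
            _ = (w : G)⁻¹ * (w * (b ^ i * w * (b ^ i)⁻¹)⁻¹) * (b ^ i * v * (b ^ i)⁻¹) := by rw [h1]
            _ = _ := by group
        exact e2.symm
      apply Subtype.ext
      have h7 : (v : G) = w * ((w : G)⁻¹ * v) := by rw [mul_inv_cancel_left]
      rw [h7, h3, mul_one]
    obtain ⟨v, hv⟩ := (Finite.injective_iff_surjective.mp hinj) ⟨u, hu⟩
    have hv' : (v : G) * (b ^ i * v * (b ^ i)⁻¹)⁻¹ = u := congrArg Subtype.val hv
    refine ⟨MulAut.conj (v : G) * Φ, ?_⟩
    change (v : G) * Φ b * (v : G)⁻¹ = g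
    rw [hΦ, hgi, ← hv']; group
  -- the classifying map
  obtain ⟨a, ha⟩ := exists_prime_orderOf_dvd_card' (G := G) p (by rw [hcard]; exact Dvd.dvd.mul_right (dvd_pow_self p (by omega)) _)
  let f : Fin 3 → MulAction.orbitRel.Quotient (MulAut G) G := ![Quotient.mk'' 1, Quotient.mk'' a, Quotient.mk'' b]
  have key : ∀ x y : G, (Quotient.mk'' x : MulAction.orbitRel.Quotient (MulAut G) G) = Quotient.mk'' y → orderOf x = orderOf y := by
    intro x y h
    obtain ⟨α, hα⟩ := (mk_eq_iff x y).mp h
    rw [← hα]; exact MulEquiv.orderOf_eq α y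
  have h1 : orderOf (1 : G) = 1 := orderOf_one
  have hf : Function.Injective f := by
    intro i j hij
    fin_cases i <;> fin_cases j <;> first | rfl | (exfalso; have := key _ _ hij; simp only [ha, hb, h1] at this; first | exact hpp.one_lt.ne this | exact hpp.one_lt.ne' this | exact hqp.one_lt.ne this | exact hqp.one_lt.ne' this | exact hpq this | exact hpq this.symm)
  have hsurj : Function.Surjective f := by
    intro c
    obtain ⟨g, rfl⟩ := Quotient.mk''_surjective c
    by_cases hgP : g ∈ P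
    · by_cases hg1 : g = 1
      · exact ⟨0, by rw [hg1]; rfl⟩
      · refine ⟨1, ?_⟩
        change Quotient.mk'' a = Quotient.mk'' g
        rw [mk_eq_iff]
        exact T1 g a (orderOf_eq_prime (he g hgP) hg1) ha
    · refine ⟨2, ?_⟩
      change Quotient.mk'' b = Quotient.mk'' g
      symm
      rw [mk_eq_iff]
      exact T2 g hgP
  rw [← Nat.card_congr (Equiv.ofBijective f ⟨hf, hsurj⟩), Nat.card_fin]

theorem forward (hnpp : ¬ IsPrimePow (Nat.card G)) (hnt : Nat.card G ≠ 1)
    (h3 : Nat.card (MulAction.orbitRel.Quotient (MulAut G) G) = 3) :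
    ∃ (p q n : ℕ) (_ : Fact p.Prime) (_ : Fact q.Prime), p ≠ q ∧ 1 ≤ n ∧ Nat.card G = p ^ n * q ∧
      (∀ P : Sylow p G, (P : Subgroup G).Normal ∧ Cfsg.IsElementaryAbelian p (P : Subgroup G)) ∧
      orderOf (p : ZMod q) = q - 1 ∧
      ∀ x y : G, orderOf x = q → orderOf y = p → x * y * x⁻¹ ≠ y := by
  classical
  -- two primes
  have hG0 : Nat.card G ≠ 0 := Nat.card_pos.ne'
  obtain ⟨p, hp, hpG⟩ := Nat.exists_prime_and_dvd hnt
  obtain ⟨q, hq, hqG, hpq⟩ : ∃ q : ℕ, q.Prime ∧ q ∣ Nat.card G ∧ p ≠ q := by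
    by_contra hcon
    push Not at hcon
    apply hnpp
    rw [isPrimePow_nat_iff]
    refine ⟨p, (Nat.card G).factorization p, hp, hp.factorization_pos_of_dvd hG0 hpG, ?_⟩
    apply Nat.eq_of_factorization_eq (pow_ne_zero _ hp.ne_zero) hG0
    intro r
    rw [hp.factorization_pow, Finsupp.single_apply]
    by_cases hpr : p = r
    · rw [if_pos hpr, hpr]
    · rw [if_neg hpr]
      symm
      by_cases hr : r.Prime
      · rw [Nat.factorization_eq_zero_iff]
        right; left
        intro h
        exact hpr (hcon r hr h)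
      · exact Nat.factorization_eq_zero_of_not_prime _ hr
  have fp : Fact p.Prime := ⟨hp⟩
  have fq : Fact q.Prime := ⟨hq⟩
  obtain ⟨a, ha⟩ := exists_prime_orderOf_dvd_card' (G := G) p hpG
  obtain ⟨b, hb⟩ := exists_prime_orderOf_dvd_card' (G := G) q hqG
  have h3o := three_orbits h3 hp hq hpq ha hb
  have hprimes : ∀ r : ℕ, r.Prime → r ∣ Nat.card G → r = p ∨ r = q := by
    intro r hr hrG
    have : Fact r.Prime := ⟨hr⟩
    obtain ⟨x, hx⟩ := exists_prime_orderOf_dvd_card' (G := G) r hrG
    rcases h3o x with h | ⟨α, h⟩ | ⟨α, h⟩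
    · rw [h, orderOf_one] at hx; exact absurd hx.symm hr.one_lt.ne'
    · left; rw [← hx, ← h, MulEquiv.orderOf_eq α, ha]
    · right; rw [← hx, ← h, MulEquiv.orderOf_eq α, hb]
  have hcard : Nat.card G = p ^ (Nat.card G).factorization p * q ^ (Nat.card G).factorization q := by
    apply Nat.eq_of_factorization_eq hG0 (mul_ne_zero (pow_ne_zero _ hp.ne_zero) (pow_ne_zero _ hq.ne_zero))
    intro r
    rw [Nat.factorization_mul (pow_ne_zero _ hp.ne_zero) (pow_ne_zero _ hq.ne_zero), hp.factorization_pow, hq.factorization_pow,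
      Finsupp.add_apply, Finsupp.single_apply, Finsupp.single_apply]
    by_cases hrp : p = r
    · subst hrp; rw [if_pos rfl, if_neg hpq.symm, add_zero]
    · rw [if_neg hrp, zero_add]
      by_cases hrq : q = r
      · subst hrq; rw [if_pos rfl]
      · rw [if_neg hrq]
        by_cases hr : r.Prime
        · rw [Nat.factorization_eq_zero_iff]
          right; left
          intro hdvd
          rcases hprimes r hr hdvd with h | h
          · exact hrp h.symm
          · exact hrq h.symm
        · exact Nat.factorization_eq_zero_of_not_prime _ hr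
  have hsol : Group.IsSolvable G := Cfsg.Agent.H3.Burnside.burnside _ G p q _ _ hp hq rfl hcard
  by_cases hcore : Cfsg.pPrimeCore p G = ⊥
  · -- O_p(G) is nontrivial
    have h1 := Cfsg.Agent.H1.Hall.centralizer_pCore_le (G := G) p hcore
    have h2 : Cfsg.pCore p G ≠ ⊥ := by
      intro h
      rw [h] at h1
      have h4 : a ∈ (⊥ : Subgroup G) := h1 (by
        rw [Subgroup.mem_centralizer_iff]
        intro x hx
        have : x = 1 := hx
        rw [this, one_mul, mul_one])
      rw [Subgroup.mem_bot] at h4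
      rw [h4, orderOf_one] at ha
      exact hp.one_lt.ne ha
    obtain ⟨n, hn, H⟩ := forward_aux h3 hpq ha hb (Cfsg.Agent.H1.Nilp.pCore_normal p) (Cfsg.Agent.H1.Nilp.pCore_isPGroup p) h2
    exact ⟨p, q, n, fp, fq, hpq, hn, H⟩
  · have hN := Cfsg.Agent.H1.Nilp.pPrimeCore_normal (G := G) p
    have hc := Cfsg.Agent.H1.Nilp.pPrimeCore_coprime (G := G) p
    have hqg : IsPGroup q (Cfsg.pPrimeCore p G) := by
      have h5 : Nat.card (Cfsg.pPrimeCore p G) ∣ q ^ (Nat.card G).factorization q := by
        have h6 := Subgroup.card_subgroup_dvd_card (Cfsg.pPrimeCore p G)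
        rw [hcard] at h6
        exact (Nat.Coprime.pow_right _ hc).dvd_of_dvd_mul_left h6
      obtain ⟨k, -, hk⟩ := (Nat.dvd_prime_pow hq).mp h5
      exact IsPGroup.of_card hk
    obtain ⟨n, hn, H⟩ := forward_aux h3 hpq.symm hb ha hN hqg hcore
    exact ⟨q, p, n, fq, fp, hpq.symm, hn, H⟩

end Cfsg.Agent.H20.Orb3
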