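import Mathlib
import Cfsg.Agent.H21_AltAut
import Cfsg.Agent.H21_S6rec4
import Cfsg.Agent.H1_Basic

/-!
# Automorphisms of alternating groups
-/

set_option autoImplicit false

namespace Cfsg.Agent.H21.AltAut

open Equiv Equiv.Perm Cfsg.Agent.H18.Alt Nat

theorem fac1 (p : ℕ) : 2 * (3 ^ (p + 3) * (p + 3)!) < 3 * (3 * p + 6)! := by
  induction p with
  | zero => decide
  | succ p ih =>
    have h1 : (3 * (p + 1) + 6)! = (3 * p + 9) * ((3 * p + 8) * ((3 * p + 7) * (3 * p + 6)!)) := by
      rw [show 3 * (p + 1) + 6 = (3 * p + 8) + 1 by ring, Nat.factorial_succ, Nat.factorial_succ, Nat.factorial_succ]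
    have h2 : (p + 1 + 3)! = (p + 4) * (p + 3)! := Nat.factorial_succ (p + 3)
    rw [h1, h2, pow_succ]
    have h3 : 0 < (3 * p + 6)! := Nat.factorial_pos _
    have h5 : 3 * (p + 4) ≤ (3 * p + 9) * ((3 * p + 8) * (3 * p + 7)) := by
      have h6 : 2 * 1 ≤ (3 * p + 8) * (3 * p + 7) := Nat.mul_le_mul (by omega) (by omega)
      calc 3 * (p + 4) ≤ (3 * p + 9) * 2 := by omega
        _ ≤ _ := Nat.mul_le_mul_left _ h6
    calc 2 * (3 ^ (p + 1 + 2) * 3 * ((p + 4) * (p + 3)!)) = (2 * (3 ^ (p + 3) * (p + 3)!)) * (3 * (p + 4)) := by ring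
      _ < (3 * (3 * p + 6)!) * (3 * (p + 4)) := by
          apply Nat.mul_lt_mul_of_pos_right ih (by positivity)
      _ ≤ (3 * (3 * p + 6)!) * ((3 * p + 9) * ((3 * p + 8) * (3 * p + 7))) := Nat.mul_le_mul_left _ h5
      _ = _ := by ring

theorem fac2 {m n : ℕ} (hm : 2 ≤ m) (hn : 3 * m ≤ n) (h7 : 7 ≤ n) :
    2 * ((n - 3 * m)! * 3 ^ m * m !) < (n - 3)! * 3 := by
  obtain ⟨p, rfl⟩ : ∃ p, m = p + 2 := ⟨m - 2, by omega⟩
  obtain ⟨j, rfl⟩ : ∃ j, n = 3 * (p + 2) + j := ⟨n - 3 * (p + 2), by omega⟩
  have e1 : 3 * (p + 2) + j - 3 * (p + 2) = j := by omega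
  have e2 : 3 * (p + 2) + j - 3 = 3 * p + 3 + j := by omega
  rw [e1, e2]
  have hj : 0 < j ! := Nat.factorial_pos j
  rcases Nat.eq_zero_or_pos p with rfl | hp
  · have hj1 : 1 ≤ j := by omega
    have h1 : (3 * 0 + 3 + j)! = (j + 3) * ((j + 2) * ((j + 1) * j !)) := by
      rw [show 3 * 0 + 3 + j = j + 2 + 1 by ring, Nat.factorial_succ, Nat.factorial_succ, Nat.factorial_succ]
    rw [h1]
    have h2 : 4 * (3 * 2) ≤ (j + 3) * ((j + 2) * (j + 1)) :=
      Nat.mul_le_mul (by omega) (Nat.mul_le_mul (by omega) (by omega))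
    have h3 : (0 + 2)! = 2 := rfl
    rw [h3]
    calc 2 * (j ! * 3 ^ (0 + 2) * 2) = 36 * j ! := by ring
      _ < 72 * j ! := by omega
      _ = (24 * j !) * 3 := by ring
      _ ≤ ((j + 3) * ((j + 2) * (j + 1)) * j !) * 3 := by
          apply Nat.mul_le_mul_right
          exact Nat.mul_le_mul_right _ h2
      _ = _ := by ring
  · obtain ⟨q, rfl⟩ : ∃ q, p = q + 1 := ⟨p - 1, by omega⟩
    have h1 := fac1 q
    have h2 : (3 * q + 6)! * j ! ≤ (3 * (q + 1) + 3 + j)! := by
      have := Nat.factorial_mul_factorial_dvd_factorial_add (3 * q + 6) j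
      rw [show 3 * (q + 1) + 3 + j = 3 * q + 6 + j by ring]
      exact Nat.le_of_dvd (Nat.factorial_pos _) this
    calc 2 * (j ! * 3 ^ (q + 1 + 2) * (q + 1 + 2)!) = (2 * (3 ^ (q + 3) * (q + 3)!)) * j ! := by ring_nf
      _ < (3 * (3 * q + 6)!) * j ! := Nat.mul_lt_mul_of_pos_right h1 hj
      _ = 3 * ((3 * q + 6)! * j !) := by ring
      _ ≤ 3 * (3 * (q + 1) + 3 + j)! := Nat.mul_le_mul_left _ h2
      _ = _ := by ring

variable {α : Type*} [Fintype α] [DecidableEq α]

/-- the centralizers in the symmetric and the alternating group -/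
theorem card_cent (g : alternatingGroup α) :
    Nat.card (Subgroup.centralizer ({g} : Set (alternatingGroup α))) ≤ Nat.card (Subgroup.centralizer ({(g : Perm α)} : Set (Perm α))) ∧
    Nat.card (Subgroup.centralizer ({(g : Perm α)} : Set (Perm α))) ≤ 2 * Nat.card (Subgroup.centralizer ({g} : Set (alternatingGroup α))) := by
  have h1 : (Subgroup.centralizer ({g} : Set (alternatingGroup α))).map (alternatingGroup α).subtype =
      alternatingGroup α ⊓ Subgroup.centralizer ({(g : Perm α)} : Set (Perm α)) := by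
    ext x
    constructor
    · rintro ⟨y, hy, rfl⟩
      refine ⟨y.2, ?_⟩
      exact Subgroup.mem_centralizer_singleton_iff.mpr (congrArg Subtype.val (Subgroup.mem_centralizer_singleton_iff.mp hy))
    · rintro ⟨hx, hy⟩
      exact ⟨⟨x, hx⟩, Subgroup.mem_centralizer_singleton_iff.mpr (Subtype.ext (Subgroup.mem_centralizer_singleton_iff.mp hy)), rfl⟩
  have h2 : Nat.card (Subgroup.centralizer ({g} : Set (alternatingGroup α))) =
      Nat.card (alternatingGroup α ⊓ Subgroup.centralizer ({(g : Perm α)} : Set (Perm α)) : Subgroup (Perm α)) := by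
    rw [← h1]
    exact Nat.card_congr ((Subgroup.centralizer ({g} : Set (alternatingGroup α))).equivMapOfInjective _ (Subgroup.subtype_injective _)).toEquiv
  rw [h2]
  refine ⟨Subgroup.card_le_of_le inf_le_right, ?_⟩
  have h3 := H1.Basic.relIndex_mul_card (inf_le_right : alternatingGroup α ⊓ Subgroup.centralizer ({(g : Perm α)} : Set (Perm α)) ≤ Subgroup.centralizer ({(g : Perm α)} : Set (Perm α)))
  rw [Subgroup.inf_relIndex_right] at h3
  rw [← h3]
  apply Nat.mul_le_mul_right
  have h4 : (alternatingGroup α).relIndex (Subgroup.centralizer ({(g : Perm α)} : Set (Perm α))) ∣ (alternatingGroup α).index :=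
    Subgroup.relIndex_dvd_index_of_normal _ _
  have h5 : (alternatingGroup α).index ≤ 2 := by
    rcases subsingleton_or_nontrivial α with h | h
    · have : Subsingleton (Perm α) := inferInstance
      have h6 : (alternatingGroup α) = ⊤ := by
        rw [Subgroup.eq_top_iff']
        intro x
        have : x = 1 := Subsingleton.elim _ _
        rw [this]; exact one_mem _
      rw [h6, Subgroup.index_top]; norm_num
    · rw [alternatingGroup.index_eq_two]
  exact (Nat.le_of_dvd (Nat.pos_of_ne_zero Subgroup.index_ne_zero_of_finite) h4).trans h5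

theorem three_of_aut (h4 : 4 ≤ Fintype.card α) (h6 : Fintype.card α ≠ 6) (τ : MulAut (alternatingGroup α)) (c : alternatingGroup α)
    (hc : (c : Perm α).IsThreeCycle) : (τ c : Perm α).IsThreeCycle := by
  have ho : orderOf (τ c : Perm α) = 3 := by
    have h0 : orderOf (τ c) = orderOf c := orderOf_injective τ.toMonoidHom τ.injective c
    rw [Subgroup.orderOf_coe, h0, ← Subgroup.orderOf_coe, hc.orderOf]
  obtain ⟨k, hk⟩ := Equiv.Perm.cycleType_prime_order (by rw [ho]; exact Nat.prime_three)
  rw [ho] at hk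
  have h1 : (τ c : Perm α).cycleType.sum ≤ Fintype.card α := by
    rw [Equiv.Perm.sum_cycleType]
    exact Finset.card_le_univ _
  have hsum : (τ c : Perm α).cycleType.sum = 3 * (k + 1) := by
    rw [hk, Multiset.sum_replicate, smul_eq_mul, mul_comm]
  rw [hsum] at h1
  by_contra hne
  have hk1 : 1 ≤ k := by
    by_contra hk0
    have : k = 0 := by omega
    subst this
    apply hne
    rw [Perm.IsThreeCycle, hk]; rfl
  have e1 : Nat.card (Subgroup.centralizer ({(c : Perm α)} : Set (Perm α))) = (Fintype.card α - 3)! * 3 := by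
    rw [Equiv.Perm.nat_card_centralizer, hc.cycleType]
    simp
  have e2 : Nat.card (Subgroup.centralizer ({(τ c : Perm α)} : Set (Perm α))) =
      (Fintype.card α - 3 * (k + 1))! * 3 ^ (k + 1) * (k + 1)! := by
    rw [Equiv.Perm.nat_card_centralizer, hsum, hk, Multiset.prod_replicate, Multiset.toFinset_replicate, if_neg (by omega),
      Finset.prod_singleton, Multiset.count_replicate_self]
  have e3 : Nat.card (Subgroup.centralizer ({c} : Set (alternatingGroup α))) = Nat.card (Subgroup.centralizer ({τ c} : Set (alternatingGroup α))) := by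
    have h7 : (Subgroup.centralizer ({c} : Set (alternatingGroup α))).map τ.toMonoidHom = Subgroup.centralizer ({τ c} : Set (alternatingGroup α)) := by
      ext x
      constructor
      · rintro ⟨y, hy, rfl⟩
        rw [Subgroup.mem_centralizer_singleton_iff]
        change τ y * τ c = τ c * τ y
        rw [← map_mul, ← map_mul, Subgroup.mem_centralizer_singleton_iff.mp hy]
      · intro hx
        refine ⟨τ.symm x, ?_, τ.apply_symm_apply x⟩
        rw [SetLike.mem_coe, Subgroup.mem_centralizer_singleton_iff]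
        apply τ.injective
        rw [map_mul, map_mul, MulEquiv.apply_symm_apply]
        exact Subgroup.mem_centralizer_singleton_iff.mp hx
    rw [← h7]
    exact Nat.card_congr ((Subgroup.centralizer ({c} : Set (alternatingGroup α))).equivMapOfInjective _ τ.injective).toEquiv
  have h8 := (card_cent c).2
  have h9 := (card_cent (τ c)).1
  rw [e1, e3] at h8
  rw [e2] at h9
  have h10 := fac2 (m := k + 1) (n := Fintype.card α) (by omega) h1 (by omega)
  omega

end Cfsg.Agent.H21.AltAut
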