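import Mathlib
import Cfsg.Agent.H21_AltAut2

/-!
# Sylow subgroups of groups between `A_n` and `Aut(A_n)`
-/

set_option autoImplicit false

namespace Cfsg.Agent.H21.AltAut

open Equiv Equiv.Perm Cfsg.Agent.H18.Alt Nat

/-- `q`-groups of permutations of fewer than `q²` points are abelian -/
theorem comm_of_lt {α : Type*} [Finite α] {q : ℕ} [hq : Fact q.Prime] (h : Nat.card α < q ^ 2) (Q : Subgroup (Perm α)) (hQ : IsPGroup q Q)
    (x y : Q) : x * y = y * x := by
  classical
  have key : ∀ a : α, (x * y) • a = (y * x) • a := by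
    intro a
    have h1 : (MulAction.stabilizer Q a).index = Nat.card (MulAction.orbit Q a) := (MulAction.index_stabilizer Q a)
    have h2 : Nat.card (MulAction.orbit Q a) ≤ Nat.card α := Nat.card_le_card_of_injective _ Subtype.val_injective
    obtain ⟨n, hn⟩ := IsPGroup.iff_card.mp hQ
    have h3 : (MulAction.stabilizer Q a).index ∣ q ^ n := by rw [← hn]; exact Subgroup.index_dvd_card _
    obtain ⟨k, hk, hk2⟩ := (Nat.dvd_prime_pow hq.out).mp h3
    have hk1 : k < 2 := by
      by_contra hcon
      push Not at hcon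
      have h4 : q ^ 2 ≤ q ^ k := Nat.pow_le_pow_right hq.out.pos hcon
      rw [← hk2, h1] at h4
      omega
    have hn0 : (MulAction.stabilizer Q a).Normal := by
      interval_cases k
      · rw [pow_zero, Subgroup.index_eq_one] at hk2
        rw [hk2]; infer_instance
      · rw [pow_one] at hk2
        apply Subgroup.normal_of_index_eq_minFac_card
        rw [hk2, hn, Nat.Prime.pow_minFac hq.out (by omega)]
    have hcomm : ∀ u v : Q ⧸ MulAction.stabilizer Q a, u * v = v * u := by
      interval_cases k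
      · rw [pow_zero, Subgroup.index_eq_one] at hk2
        have : Subsingleton (Q ⧸ MulAction.stabilizer Q a) := by rw [hk2]; exact QuotientGroup.subsingleton_quotient_top
        intro u v; exact Subsingleton.elim _ _
      · rw [pow_one] at hk2
        haveI : IsCyclic (Q ⧸ MulAction.stabilizer Q a) := isCyclic_of_prime_card (p := q) hk2
        intro u v
        exact (IsCyclic.isMulCommutative).is_comm.comm u v
    have h5 := hcomm (QuotientGroup.mk x) (QuotientGroup.mk y)
    rw [← QuotientGroup.mk_mul, ← QuotientGroup.mk_mul, QuotientGroup.eq] at h5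
    have h6 : ((x * y)⁻¹ * (y * x)) • a = a := h5
    rw [mul_smul, inv_smul_eq_iff] at h6
    exact h6.symm
  apply Subtype.ext
  apply Equiv.ext
  exact key

variable {α : Type*} [Fintype α] [DecidableEq α]

/-- the automorphisms of `A₆` either preserve the 3-cycles or have a square which does -/
theorem sq_preserves6 (τ : MulAut (alternatingGroup (Fin 6))) (x : alternatingGroup (Fin 6)) (hx : (x : Perm (Fin 6)).IsThreeCycle) :
    ((τ * τ) x : Perm (Fin 6)).IsThreeCycle := by
  have ho : ∀ x : alternatingGroup (Fin 6), orderOf (x : Perm (Fin 6)) = 3 → orderOf (τ x : Perm (Fin 6)) = 3 := by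
    intro x hx
    have h0 : orderOf (τ x) = orderOf x := orderOf_injective τ.toMonoidHom τ.injective x
    rw [Subgroup.orderOf_coe, h0, ← Subgroup.orderOf_coe, hx]
  have ho' : ∀ x : alternatingGroup (Fin 6), orderOf (x : Perm (Fin 6)) = 3 → orderOf (τ.symm x : Perm (Fin 6)) = 3 := by
    intro x hx
    have h0 : orderOf (τ.symm x) = orderOf x := orderOf_injective τ.symm.toMonoidHom τ.symm.injective x
    rw [Subgroup.orderOf_coe, h0, ← Subgroup.orderOf_coe, hx]
  -- conjugate elements have images of the same type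
  have hty : ∀ x y : alternatingGroup (Fin 6), IsConj x y → (τ x : Perm (Fin 6)).cycleType = (τ y : Perm (Fin 6)).cycleType := by
    intro x y h
    obtain ⟨g, hg⟩ := isConj_iff.mp h
    have h1 : τ y = τ g * τ x * (τ g)⁻¹ := by rw [← hg, map_mul, map_mul, map_inv]
    rw [h1]
    exact Perm.cycleType_conj.symm
  have hx3 := hx.orderOf
  change ((τ (τ x) : Perm (Fin 6))).IsThreeCycle
  rcases S6rec.cycle3 (ho x hx3) with h1 | h1
  · rw [Perm.IsThreeCycle, hty (τ x) x (alternatingGroup.isThreeCycle_isConj (by simp) h1 hx)]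
    exact h1
  · rcases S6rec.cycle3 (ho _ (ho x hx3)) with h2 | h2
    · exact h2
    · exfalso
      -- `x` is not an image
      rcases S6rec.cycle3 (ho' x hx3) with h3 | h3
      · have h4 := hty (τ.symm x) x (alternatingGroup.isThreeCycle_isConj (by simp) h3 hx)
        rw [MulEquiv.apply_symm_apply, hx.cycleType, h1] at h4
        exact absurd h4 (by decide)
      · have h4 := hty (τ.symm x) (τ x) (S6rec.conj33 h3 h1)
        rw [MulEquiv.apply_symm_apply, hx.cycleType, h2] at h4
        exact absurd h4 (by decide)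

/-- squares of automorphisms are induced by permutations -/
theorem sq_inner (h4 : 4 ≤ Fintype.card α) (τ : MulAut (alternatingGroup α)) :
    ∃ σ : Perm α, τ * τ = MulAut.conjNormal σ := by
  by_cases h6 : Fintype.card α = 6
  · -- transport to `Fin 6`
    let e : α ≃ Fin 6 := Fintype.equivFinOfCardEq h6
    let E : alternatingGroup α ≃* alternatingGroup (Fin 6) := Equiv.altCongrHom e
    obtain ⟨σ, hσ⟩ := of_three (by simp) (MulAut.congr E τ * MulAut.congr E τ) (sq_preserves6 (MulAut.congr E τ))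
    refine ⟨e.permCongrHom.symm σ, ?_⟩
    apply (MulAut.congr E).injective
    rw [map_mul, hσ]
    apply MulEquiv.ext
    intro x
    apply Subtype.ext
    obtain ⟨y, rfl⟩ := E.surjective x
    have h1 : (MulAut.congr E (MulAut.conjNormal (e.permCongrHom.symm σ) : MulAut (alternatingGroup α))) (E y) =
        E ((MulAut.conjNormal (e.permCongrHom.symm σ) : MulAut (alternatingGroup α)) y) := by
      change E ((MulAut.conjNormal (e.permCongrHom.symm σ) : MulAut (alternatingGroup α)) (E.symm (E y))) = _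
      rw [MulEquiv.symm_apply_apply]
    rw [h1, MulAut.conjNormal_apply]
    have h2 : ∀ z : alternatingGroup α, (E z : Perm (Fin 6)) = e.permCongrHom (z : Perm α) := fun z => rfl
    rw [h2, h2, MulAut.conjNormal_apply, map_mul, map_mul, map_inv, MulEquiv.apply_symm_apply]
  · obtain ⟨σ, hσ⟩ := of_three h4 τ (fun c hc => three_of_aut h4 h6 τ c hc)
    exact ⟨σ * σ, by rw [map_mul, ← hσ]⟩

theorem odd_inner (h4 : 4 ≤ Fintype.card α) {p : ℕ} (hp : p.Prime) (hp2 : p ≠ 2) {k : ℕ} (τ : MulAut (alternatingGroup α)) (hτ : orderOf τ = p ^ k) :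
    ∃ σ : Perm α, τ = MulAut.conjNormal σ := by
  have hodd : Odd (p ^ k) := (hp.odd_of_ne_two hp2).pow
  obtain ⟨j, hj⟩ := hodd
  have h1 : τ = (τ ^ (j + 1)) * (τ ^ (j + 1)) := by
    have h2 : τ ^ (2 * j + 1) = 1 := by rw [← hj, ← hτ]; exact pow_orderOf_eq_one τ
    rw [← pow_add, show j + 1 + (j + 1) = (2 * j + 1) + 1 by ring, pow_succ, h2, one_mul]
  rw [h1]
  exact sq_inner h4 _


/-- odd Sylow subgroups -/
theorem sylow_comm (h4 : 4 ≤ Fintype.card α) {p : ℕ} [hp : Fact p.Prime] (hp2 : p ≠ 2) (hlt : Fintype.card α < p ^ 2)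
    {G : Subgroup (MulAut (alternatingGroup α))} (P : Subgroup G) (hP : IsPGroup p P) : IsMulCommutative P := by
  let Q : Subgroup (Perm α) := (P.map G.subtype).comap MulAut.conjNormal
  have hQ : IsPGroup p Q := (hP.map G.subtype).comap_of_injective _ (S6rec.conjNormal_injective h4)
  have hex : ∀ x : P, ∃ σ : Q, (MulAut.conjNormal (σ : Perm α) : MulAut (alternatingGroup α)) = ((x : G) : MulAut (alternatingGroup α)) := by
    intro x
    obtain ⟨k, hk⟩ := (IsPGroup.iff_orderOf.mp hP) x
    have hk' : orderOf (((x : G) : MulAut (alternatingGroup α))) = p ^ k := by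
      rw [Subgroup.orderOf_coe, Subgroup.orderOf_coe, hk]
    obtain ⟨σ, hσ⟩ := odd_inner h4 hp.out hp2 _ hk'
    refine ⟨⟨σ, ?_⟩, hσ.symm⟩
    rw [Subgroup.mem_comap, ← hσ]
    exact ⟨x, x.2, rfl⟩
  refine ⟨⟨fun x y => ?_⟩⟩
  obtain ⟨σ, hσ⟩ := hex x
  obtain ⟨ρ, hρ⟩ := hex y
  have h1 := comm_of_lt (by rw [Nat.card_eq_fintype_card]; exact hlt) Q hQ σ ρ
  apply Subtype.ext
  apply Subtype.ext
  change ((x : G) : MulAut (alternatingGroup α)) * y = y * x
  rw [← hσ, ← hρ, ← map_mul, ← map_mul]
  congr 1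
  exact congrArg Subtype.val h1

theorem exists_odd_odd {p q : ℕ} (hp : p.Prime) (hq : q.Prime) (hpq : p ≠ q) (hp2 : p ≠ 2) (hq2 : q ≠ 2)
    (hle : p + q ≤ Fintype.card α) : ∃ g : alternatingGroup α, orderOf g = p * q := by
  obtain ⟨g, hg⟩ := (Equiv.Perm.exists_with_cycleType_iff α (m := {p, q})).mpr ⟨by simpa using hle, by
    intro a ha
    simp only [Multiset.insert_eq_cons, Multiset.mem_cons, Multiset.mem_singleton] at ha
    rcases ha with rfl | rfl
    · exact hp.two_le
    · exact hq.two_le⟩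
  have hs : Perm.sign g = 1 := by
    rw [Perm.sign_of_cycleType, hg]
    obtain ⟨a, ha⟩ := hp.odd_of_ne_two hp2
    obtain ⟨b, hb⟩ := hq.odd_of_ne_two hq2
    have : ({p, q} : Multiset ℕ).sum + Multiset.card ({p, q} : Multiset ℕ) = 2 * (a + b + 2) := by
      simp; omega
    rw [this, pow_mul]; simp
  refine ⟨⟨g, mem_alternatingGroup.mpr hs⟩, ?_⟩
  rw [Subgroup.orderOf_mk, ← Perm.lcm_cycleType, hg]
  simp only [Multiset.insert_eq_cons, Multiset.lcm_cons, Multiset.lcm_singleton]
  rw [normalize_eq]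
  exact (Nat.coprime_primes hp hq).mpr hpq |>.lcm_eq_mul

theorem exists_two_odd {q : ℕ} (hq : q.Prime) (hq2 : q ≠ 2)
    (hle : 4 + q ≤ Fintype.card α) : ∃ g : alternatingGroup α, orderOf g = 2 * q := by
  obtain ⟨g, hg⟩ := (Equiv.Perm.exists_with_cycleType_iff α (m := {2, 2, q})).mpr ⟨by
      simp only [Multiset.insert_eq_cons, Multiset.sum_cons, Multiset.sum_singleton]; omega, by
    intro a ha
    simp only [Multiset.insert_eq_cons, Multiset.mem_cons, Multiset.mem_singleton] at ha
    rcases ha with rfl | rfl | rfl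
    · exact le_rfl
    · exact le_rfl
    · exact hq.two_le⟩
  have hs : Perm.sign g = 1 := by
    rw [Perm.sign_of_cycleType, hg]
    obtain ⟨b, hb⟩ := hq.odd_of_ne_two hq2
    have : ({2, 2, q} : Multiset ℕ).sum + Multiset.card ({2, 2, q} : Multiset ℕ) = 2 * (b + 4) := by
      simp; omega
    rw [this, pow_mul]; simp
  refine ⟨⟨g, mem_alternatingGroup.mpr hs⟩, ?_⟩
  rw [Subgroup.orderOf_mk, ← Perm.lcm_cycleType, hg]
  simp only [Multiset.insert_eq_cons, Multiset.lcm_cons, Multiset.lcm_singleton]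
  rw [normalize_eq]
  have h1 : Nat.Coprime 2 q := (Nat.coprime_primes Nat.prime_two hq).mpr (Ne.symm hq2)
  change Nat.lcm 2 (Nat.lcm 2 q) = 2 * q
  rw [h1.lcm_eq_mul]
  exact Nat.lcm_eq_right (Dvd.intro _ rfl)

theorem main4231 (h4 : 4 ≤ Fintype.card α) (G : Subgroup (MulAut (alternatingGroup α)))
    (hG : (MulAut.conj : alternatingGroup α →* MulAut (alternatingGroup α)).range ≤ G)
    (p q : ℕ) [hp : Fact p.Prime] [hq : Fact q.Prime] (hpq : p ≠ q) (h : ∀ g : G, orderOf g ≠ p * q) :
    (∀ P : Sylow p G, IsMulCommutative (P : Subgroup G)) ∨ (∀ Q : Sylow q G, IsMulCommutative (Q : Subgroup G)) := by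
  by_contra hcon
  push Not at hcon
  obtain ⟨⟨P, hP⟩, ⟨Q, hQ⟩⟩ := hcon
  have hG2 : ∀ g : alternatingGroup α, orderOf g ≠ p * q := by
    intro g hg
    apply h ⟨MulAut.conj g, hG ⟨g, rfl⟩⟩
    rw [Subgroup.orderOf_mk, ← hg]
    have hi : Function.Injective (MulAut.conj : alternatingGroup α →* MulAut (alternatingGroup α)) := by
      intro a b hab
      have h1 : (MulAut.conjNormal (a : Perm α) : MulAut (alternatingGroup α)) = MulAut.conjNormal (b : Perm α) := by
        rw [MulAut.conjNormal_val, MulAut.conjNormal_val, hab]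
      exact Subtype.ext (S6rec.conjNormal_injective h4 h1)
    exact orderOf_injective _ hi g
  have h1 : p = 2 ∨ p ^ 2 ≤ Fintype.card α := by
    by_contra h2
    push Not at h2
    exact hP (sylow_comm h4 h2.1 h2.2 _ P.2)
  have h2 : q = 2 ∨ q ^ 2 ≤ Fintype.card α := by
    by_contra h3
    push Not at h3
    exact hQ (sylow_comm h4 h3.1 h3.2 _ Q.2)
  have hge : ∀ r : ℕ, r.Prime → r ≠ 2 → 3 ≤ r := fun r hr h => by
    have := hr.two_le; omega
  by_cases hp2 : p = 2
  · have hq2 : q ≠ 2 := fun h => hpq (hp2.trans h.symm)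
    have h3 := h2.resolve_left hq2
    have h5 := hge q hq.out hq2
    obtain ⟨g, hg⟩ := exists_two_odd (α := α) hq.out hq2 (by nlinarith)
    exact hG2 g (by rw [hg, hp2])
  · by_cases hq2 : q = 2
    · have h3 := h1.resolve_left hp2
      have h5 := hge p hp.out hp2
      obtain ⟨g, hg⟩ := exists_two_odd (α := α) hp.out hp2 (by nlinarith)
      exact hG2 g (by rw [hg, hq2, mul_comm])
    · have h3 := h1.resolve_left hp2
      have h5 := h2.resolve_left hq2
      have h6 := hge p hp.out hp2
      have h7 := hge q hq.out hq2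
      obtain ⟨g, hg⟩ := exists_odd_odd (α := α) hp.out hq.out hpq hp2 hq2 (by
        rcases le_total p q with h8 | h8 <;> nlinarith)
      exact hG2 g hg

end Cfsg.Agent.H21.AltAut
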