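import Mathlib
import Cfsg.Agent.H21_Exc

/-!
# Combinatorics of norm one vectors in `ℤ^I`
-/

set_option autoImplicit false

namespace Cfsg.Agent.H21.Exc

section Vec

variable {I : Type*} [Fintype I] [DecidableEq I]

theorem dot_self_nonneg (v : I → ℤ) : 0 ≤ v ⬝ᵥ v :=
  Finset.sum_nonneg fun j _ => mul_self_nonneg _

theorem dot_self_zero {v : I → ℤ} (h : v ⬝ᵥ v = 0) : v = 0 := by
  ext i
  have := (Finset.sum_eq_zero_iff_of_nonneg (fun j _ => mul_self_nonneg (v j))).mp h i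
    (Finset.mem_univ i)
  exact mul_self_eq_zero.mp this

/-- inner product of units -/
theorem unit_dot {u v : I → ℤ} (hu : u ⬝ᵥ u = 1) (hv : v ⬝ᵥ v = 1) :
    u ⬝ᵥ v = 0 ∨ u = v ∨ u = -v := by
  obtain ⟨i, hi⟩ := unit_cases hu
  obtain ⟨j, hj⟩ := unit_cases hv
  by_cases hij : i = j
  · subst hij
    rcases hi with rfl | rfl <;> rcases hj with rfl | rfl <;> simp
  · left
    rcases hi with rfl | rfl <;> rcases hj with rfl | rfl <;> simp [hij, Ne.symm hij]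

theorem dot_comm (u v : I → ℤ) : u ⬝ᵥ v = v ⬝ᵥ u := dotProduct_comm u v

theorem norm_two {v : I → ℤ} (hv : v ⬝ᵥ v = 2) :
    ∃ p q : I → ℤ, p ⬝ᵥ p = 1 ∧ q ⬝ᵥ q = 1 ∧ p ⬝ᵥ q = 0 ∧ v = p + q := by
  have h0 : ∃ i, v i ≠ 0 := by
    by_contra h
    push Not at h
    have : v = 0 := funext h
    rw [this] at hv; simp at hv
  obtain ⟨i, hi⟩ := h0
  have h1 : v ⬝ᵥ v = v i * v i + ∑ j ∈ Finset.univ.erase i, v j * v j := by
    rw [dotProduct, ← Finset.add_sum_erase _ _ (Finset.mem_univ i)]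
  have h2 : 0 ≤ ∑ j ∈ Finset.univ.erase i, v j * v j :=
    Finset.sum_nonneg fun j _ => mul_self_nonneg _
  have h3 : 0 < v i * v i := mul_self_pos.mpr hi
  have h4 : v i * v i = 1 := by
    have h5 : v i * v i ≤ 2 := by omega
    have h6 : v i ≤ 1 := by nlinarith
    have h7 : -1 ≤ v i := by nlinarith
    have h8 : v i = -1 ∨ v i = 0 ∨ v i = 1 := by omega
    rcases h8 with h | h | h
    · rw [h]; norm_num
    · exact absurd h hi
    · rw [h]; norm_num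
  have hpp : (Pi.single i (v i) : I → ℤ) ⬝ᵥ Pi.single i (v i) = 1 := by simp [h4]
  have hpv : (Pi.single i (v i) : I → ℤ) ⬝ᵥ v = 1 := by simp [h4]
  refine ⟨Pi.single i (v i), v - Pi.single i (v i), hpp, ?_, ?_, by abel⟩
  · rw [sub_dotProduct, dotProduct_sub, dotProduct_sub, hpp, hpv,
      dotProduct_comm v (Pi.single i (v i)), hpv, hv]
    norm_num
  · rw [dotProduct_sub, hpp, hpv]; norm_num

/-- orthogonality of two pairs -/
theorem pair_orth {p q p' q' : I → ℤ} (hp : p ⬝ᵥ p = 1) (hq : q ⬝ᵥ q = 1) (hp' : p' ⬝ᵥ p' = 1)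
    (hq' : q' ⬝ᵥ q' = 1) (hpq : p ⬝ᵥ q = 0) (hpq' : p' ⬝ᵥ q' = 0)
    (h : (p + q) ⬝ᵥ (p' + q') = 0) :
    p ⬝ᵥ p' = 0 ∨ (p' = p ∧ q' = -q) ∨ (p' = -p ∧ q' = q) := by
  rw [add_dotProduct, dotProduct_add, dotProduct_add] at h
  have hqp : q ⬝ᵥ p = 0 := by rw [dotProduct_comm]; exact hpq
  rcases unit_dot hp hp' with h1 | rfl | rfl
  · exact Or.inl h1
  · right; left
    rw [hp, hpq', hqp] at h
    refine ⟨rfl, ?_⟩
    rcases unit_dot hq hq' with h2 | rfl | rfl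
    · rw [h2] at h; norm_num at h
    · rw [hq] at h; norm_num at h
    · rw [neg_neg]
  · right; right
    refine ⟨by rw [neg_neg], ?_⟩
    rw [neg_dotProduct, neg_dotProduct, hp', hpq'] at h
    have h3 : q ⬝ᵥ p' = 0 := by
      rw [dotProduct_neg] at hqp; omega
    rw [h3] at h
    rcases unit_dot hq hq' with h2 | rfl | rfl
    · rw [h2] at h; norm_num at h
    · rfl
    · rw [neg_dotProduct, hq'] at h; norm_num at h

/-- Bessel -/
theorem bessel {ι : Type*} [Fintype ι] [DecidableEq ι] (u : ι → I → ℤ)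
    (hu : ∀ k l, u k ⬝ᵥ u l = if k = l then 1 else 0) (v : I → ℤ) :
    ∑ k, (v ⬝ᵥ u k) ^ 2 ≤ v ⬝ᵥ v ∧
    (∑ k, (v ⬝ᵥ u k) ^ 2 = v ⬝ᵥ v → v = ∑ k, (v ⬝ᵥ u k) • u k) := by
  set w := v - ∑ k, (v ⬝ᵥ u k) • u k with hw
  have h1 : ∀ k, (∑ l, (v ⬝ᵥ u l) • u l) ⬝ᵥ u k = v ⬝ᵥ u k := by
    intro k
    rw [sum_dotProduct, Finset.sum_eq_single_of_mem k (Finset.mem_univ _)]
    · rw [smul_dotProduct, hu]; simp
    · intro l _ hl
      rw [smul_dotProduct, hu, if_neg hl]; simp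
  have h2 : (∑ l, (v ⬝ᵥ u l) • u l) ⬝ᵥ (∑ l, (v ⬝ᵥ u l) • u l) = ∑ k, (v ⬝ᵥ u k) ^ 2 := by
    rw [dotProduct_sum]
    refine Finset.sum_congr rfl fun k _ => ?_
    rw [dotProduct_smul, h1]; simp [sq]
  have h3 : v ⬝ᵥ (∑ l, (v ⬝ᵥ u l) • u l) = ∑ k, (v ⬝ᵥ u k) ^ 2 := by
    rw [dotProduct_sum]
    refine Finset.sum_congr rfl fun k _ => ?_
    rw [dotProduct_smul]; simp [sq]
  have h4 : w ⬝ᵥ w = v ⬝ᵥ v - ∑ k, (v ⬝ᵥ u k) ^ 2 := by
    rw [hw, sub_dotProduct, dotProduct_sub, dotProduct_sub, h2, h3,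
      dotProduct_comm (∑ l, (v ⬝ᵥ u l) • u l) v, h3]
    ring
  have h5 := dot_self_nonneg w
  refine ⟨by omega, fun h => ?_⟩
  have h6 : w = 0 := dot_self_zero (by omega)
  rw [hw, sub_eq_zero] at h6
  exact h6

end Vec

end Cfsg.Agent.H21.Exc
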