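import Mathlib
import Cfsg.Agent.H21_ExcVec

/-!
# The configuration of exceptional characters for `3^3 : 2^2`
-/

set_option autoImplicit false

namespace Cfsg.Agent.H21.Exc

section Vec

variable {I : Type*} [Fintype I] [DecidableEq I]

/-- four pairs -/
theorem four_pairs (deg : (I → ℤ) →+ ℤ) (hdeg : ∀ u : I → ℤ, u ⬝ᵥ u = 1 → deg u ≠ 0)
    (o : I → ℤ) (ho : o ⬝ᵥ o = 1) (s : Fin 4 → I → ℤ) (hs : ∀ i, s i ⬝ᵥ s i = 2)
    (hso : ∀ i, s i ⬝ᵥ o = 0) (hss : ∀ i j, i ≠ j → s i ⬝ᵥ s j = 0)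
    (hd : ∀ i, deg (s i) = if i = 3 then 0 else 1) :
    ∃ P : Fin 4 → Bool → I → ℤ, (∀ i, s i = P i true + P i false) ∧
      (∀ k l : Option (Fin 4 × Bool), (k.elim o (fun x => P x.1 x.2)) ⬝ᵥ
        (l.elim o (fun x => P x.1 x.2)) = if k = l then 1 else 0) := by
  have hex : ∀ i, ∃ p q : I → ℤ, p ⬝ᵥ p = 1 ∧ q ⬝ᵥ q = 1 ∧ p ⬝ᵥ q = 0 ∧ s i = p + q :=
    fun i => norm_two (hs i)
  choose p q hp hq hpq hsi using hex
  have hqp : ∀ i, q i ⬝ᵥ p i = 0 := fun i => by rw [dotProduct_comm]; exact hpq i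
  -- orthogonality to `o`
  have hpo : ∀ i, p i ⬝ᵥ o = 0 ∧ q i ⬝ᵥ o = 0 := by
    intro i
    have h1 := hso i
    rw [hsi, add_dotProduct] at h1
    rcases unit_dot (hp i) ho with h2 | h2 | h2
    · exact ⟨h2, by omega⟩
    · rw [h2, ho] at h1
      have h3 := hqp i
      rw [h2] at h3; omega
    · rw [h2, neg_dotProduct, ho] at h1
      have h3 := hqp i
      rw [h2, dotProduct_neg] at h3; omega
  have hop : ∀ i, o ⬝ᵥ p i = 0 ∧ o ⬝ᵥ q i = 0 := fun i => by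
    rw [dotProduct_comm o, dotProduct_comm o]; exact hpo i
  -- orthogonality between pairs
  have key : ∀ i j, i ≠ j → ∀ p q p' q' : I → ℤ, p ⬝ᵥ p = 1 → q ⬝ᵥ q = 1 → p' ⬝ᵥ p' = 1 →
      q' ⬝ᵥ q' = 1 → p ⬝ᵥ q = 0 → p' ⬝ᵥ q' = 0 → s i = p + q → s j = p' + q' →
      p ⬝ᵥ p' = 0 := by
    intro i j hij p q p' q' hp hq hp' hq' hpq hpq' hsi hsj
    have h1 := hss i j hij
    rw [hsi, hsj] at h1
    have hdi := hd i
    have hdj := hd j
    rw [hsi, map_add] at hdi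
    rw [hsj, map_add] at hdj
    have n1 := hdeg p hp
    have n2 := hdeg q hq
    rcases pair_orth hp hq hp' hq' hpq hpq' h1 with h | ⟨h2, h3⟩ | ⟨h2, h3⟩
    · exact h
    · rw [h2, h3, map_neg] at hdj
      split_ifs at hdi hdj with h4 h5
      · exact absurd (h4.trans h5.symm) hij
      all_goals omega
    · rw [h2, h3, map_neg] at hdj
      split_ifs at hdi hdj with h4 h5
      · exact absurd (h4.trans h5.symm) hij
      all_goals omega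
  refine ⟨fun i c => if c then p i else q i, fun i => by simp [hsi i], ?_⟩
  intro k l
  rcases k with _ | ⟨i, c⟩ <;> rcases l with _ | ⟨j, d⟩
  · simp [ho]
  · cases d <;> simp [hop]
  · cases c <;> simp [hpo]
  · by_cases hij : i = j
    · subst hij
      cases c <;> cases d <;> simp [hp, hq, hpq, hqp]
    · have e1 := key i j hij _ _ _ _ (hp i) (hq i) (hp j) (hq j) (hpq i) (hpq j) (hsi i) (hsi j)
      have e2 := key i j hij _ _ _ _ (hp i) (hq i) (hq j) (hp j) (hpq i) (hqp j) (hsi i)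
        (by rw [hsi j, add_comm])
      have e3 := key i j hij _ _ _ _ (hq i) (hp i) (hp j) (hq j) (hqp i) (hpq j)
        (by rw [hsi i, add_comm]) (hsi j)
      have e4 := key i j hij _ _ _ _ (hq i) (hp i) (hq j) (hp j) (hqp i) (hqp j)
        (by rw [hsi i, add_comm]) (by rw [hsi j, add_comm])
      cases c <;> cases d <;> simp [hij, e1, e2, e3, e4]

theorem odd_pair {x y : ℤ} (h : x + y = 1) : 1 ≤ x ^ 2 + y ^ 2 ∧
    (x ^ 2 + y ^ 2 = 1 → (x = 0 ∧ y = 1) ∨ (x = 1 ∧ y = 0)) := by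
  have hy : y = 1 - x := by omega
  subst hy
  constructor
  · have : 0 ≤ x * (x - 1) := by
      rcases le_or_gt x 0 with h | h
      · exact mul_nonneg_of_nonpos_of_nonpos h (by omega)
      · exact mul_nonneg (by omega) (by omega)
    nlinarith
  · intro h2
    have h3 : x * (x - 1) = 0 := by nlinarith
    rcases mul_eq_zero.mp h3 with h4 | h4
    · left; omega
    · right; omega

theorem three_pair {x y : ℤ} (h : x + y = 1) (h2 : x ^ 2 + y ^ 2 < 5) :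
    x ^ 2 + y ^ 2 = 1 := by
  have hy : y = 1 - x := by omega
  subst hy
  have h3 : x < 2 := by nlinarith
  have h4 : -1 < x := by nlinarith
  interval_cases x <;> norm_num

theorem config (deg : (I → ℤ) →+ ℤ) (hdeg : ∀ u : I → ℤ, u ⬝ᵥ u = 1 → deg u ≠ 0)
    (o : I → ℤ) (ho : o ⬝ᵥ o = 1) (ho1 : deg o = 1) (a b : Fin 3 → I → ℤ) (g d : I → ℤ)
    (haa : ∀ i j, a i ⬝ᵥ a j = if i = j then 3 else 1) (hao : ∀ i, a i ⬝ᵥ o = -1)
    (hbb : ∀ i, b i ⬝ᵥ b i = 3) (hbo : ∀ i, b i ⬝ᵥ o = 0)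
    (hba : ∀ i j, b i ⬝ᵥ a j = if i = j then 0 else 1)
    (hgg : g ⬝ᵥ g = 5) (hgo : g ⬝ᵥ o = -1) (hga : ∀ i, g ⬝ᵥ a i = 2) (hbg : ∀ i, b i ⬝ᵥ g = 2)
    (hdd : d ⬝ᵥ d = 2) (hdo : d ⬝ᵥ o = 0) (hda : ∀ i, a i ⬝ᵥ d = 0) (hbd : ∀ i, b i ⬝ᵥ d = 0)
    (hgd : g ⬝ᵥ d = 1) (hdega : ∀ i, deg (a i) = 0) (hdegd : deg d = 0) :
    ∃ (X Y Z : Fin 3 → I → ℤ) (F : I → ℤ), (∀ i, X i ⬝ᵥ X i = 1) ∧ (∀ i, Y i ⬝ᵥ Y i = 1) ∧
      (∀ i, Z i ⬝ᵥ Z i = 1) ∧ F ⬝ᵥ F = 1 ∧ (∀ i, a i = X i - o - Y i) ∧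
      (∀ i, b i = Z i - Y (i + 1) - Y (i + 2)) ∧ g = F - o - Y 0 - Y 1 - Y 2 ∧
      (∀ i, Y i ⬝ᵥ o = 0) ∧ (∀ i j, i ≠ j → Y i ⬝ᵥ Y j = 0) ∧ (∀ i j, Y i ⬝ᵥ X j = 0) := by
  classical
  let s : Fin 4 → I → ℤ := ![a 0 + o, a 1 + o, a 2 + o, d]
  have s0 : s 0 = a 0 + o := rfl
  have s1 : s 1 = a 1 + o := rfl
  have s2 : s 2 = a 2 + o := rfl
  have s3 : s 3 = d := rfl
  have hoa : ∀ i, o ⬝ᵥ a i = -1 := fun i => by rw [dotProduct_comm]; exact hao i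
  have hod : o ⬝ᵥ d = 0 := by rw [dotProduct_comm]; exact hdo
  have hda' : ∀ i, d ⬝ᵥ a i = 0 := fun i => by rw [dotProduct_comm]; exact hda i
  obtain ⟨P, hP, hon⟩ := four_pairs deg hdeg o ho s
    (by
      intro i; fin_cases i
      all_goals simp [s, add_dotProduct, dotProduct_add, haa, hao, hoa, ho, hdd])
    (by
      intro i; fin_cases i
      all_goals simp [s, add_dotProduct, hao, ho, hdo])
    (by
      intro i j hij
      fin_cases i <;> fin_cases j <;>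
        first
        | exact absurd rfl hij
        | simp [s, add_dotProduct, dotProduct_add, haa, hao, hoa, ho, hdd, hda, hda', hdo, hod])
    (by
      intro i; fin_cases i
      all_goals simp [s, hdega, ho1, hdegd])
  -- orthonormality facts
  have hPP : ∀ i c, P i c ⬝ᵥ P i c = 1 := fun i c => by
    have := hon (some (i, c)) (some (i, c)); simpa using this
  have hPne : ∀ i c j e, (i, c) ≠ (j, e) → P i c ⬝ᵥ P j e = 0 := fun i c j e h => by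
    have := hon (some (i, c)) (some (j, e)); rw [if_neg (by simpa using h)] at this
    simpa using this
  have hPo : ∀ i c, P i c ⬝ᵥ o = 0 := fun i c => by
    have := hon (some (i, c)) none; simpa using this
  have hsum : ∀ v : I → ℤ, ∑ k : Option (Fin 4 × Bool),
      (v ⬝ᵥ (k.elim o (fun x => P x.1 x.2))) ^ 2 = (v ⬝ᵥ o) ^ 2 +
        ((v ⬝ᵥ P 0 true) ^ 2 + (v ⬝ᵥ P 0 false) ^ 2) + ((v ⬝ᵥ P 1 true) ^ 2 + (v ⬝ᵥ P 1 false) ^ 2) +
        ((v ⬝ᵥ P 2 true) ^ 2 + (v ⬝ᵥ P 2 false) ^ 2) +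
        ((v ⬝ᵥ P 3 true) ^ 2 + (v ⬝ᵥ P 3 false) ^ 2) := by
    intro v
    rw [Fintype.sum_option, Fintype.sum_prod_type, Fin.sum_univ_four]
    simp only [Fintype.sum_bool, Option.elim]
    ring
  have hsum' : ∀ v : I → ℤ, ∑ k : Option (Fin 4 × Bool),
      (v ⬝ᵥ (k.elim o (fun x => P x.1 x.2))) • (k.elim o (fun x => P x.1 x.2)) = (v ⬝ᵥ o) • o +
        ((v ⬝ᵥ P 0 true) • P 0 true + (v ⬝ᵥ P 0 false) • P 0 false) +
        ((v ⬝ᵥ P 1 true) • P 1 true + (v ⬝ᵥ P 1 false) • P 1 false) +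
        ((v ⬝ᵥ P 2 true) • P 2 true + (v ⬝ᵥ P 2 false) • P 2 false) +
        ((v ⬝ᵥ P 3 true) • P 3 true + (v ⬝ᵥ P 3 false) • P 3 false) := by
    intro v
    rw [Fintype.sum_option, Fintype.sum_prod_type, Fin.sum_univ_four]
    simp only [Fintype.sum_bool, Option.elim]
    abel
  -- `g`
  have hgs : ∀ i, g ⬝ᵥ P i true + g ⬝ᵥ P i false = 1 := by
    intro i
    rw [← dotProduct_add, ← hP]
    fin_cases i
    all_goals simp [s, dotProduct_add, hga, hgo, hgd]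
  obtain ⟨hb1, hb2⟩ := bessel _ hon g
  rw [hsum, hgo, hgg] at hb1
  have q0 := (odd_pair (hgs 0)).1
  have q1 := (odd_pair (hgs 1)).1
  have q2 := (odd_pair (hgs 2)).1
  have q3 := (odd_pair (hgs 3)).1
  have r0 := (odd_pair (hgs 0)).2 (by omega)
  have r1 := (odd_pair (hgs 1)).2 (by omega)
  have r2 := (odd_pair (hgs 2)).2 (by omega)
  have r3 := (odd_pair (hgs 3)).2 (by omega)
  have hb3 := hb2 (by rw [hsum, hgo, hgg]; omega)
  rw [hsum', hgo] at hb3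
  have hr : ∀ i, (g ⬝ᵥ P i true = 0 ∧ g ⬝ᵥ P i false = 1) ∨
      (g ⬝ᵥ P i true = 1 ∧ g ⬝ᵥ P i false = 0) := by
    intro i; fin_cases i
    exacts [r0, r1, r2, r3]
  -- the choice function
  have hc : ∀ i, ∃ c : Bool, g ⬝ᵥ P i c = 1 ∧ g ⬝ᵥ P i (!c) = 0 := by
    intro i
    rcases hr i with ⟨h1, h2⟩ | ⟨h1, h2⟩
    · exact ⟨false, h2, h1⟩
    · exact ⟨true, h1, h2⟩
  choose c hc1 hc0 using hc
  have hterm : ∀ i, (g ⬝ᵥ P i true) • P i true + (g ⬝ᵥ P i false) • P i false = P i (c i) := by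
    intro i
    have h1 := hc1 i
    have h0 := hc0 i
    cases hci : c i
    · rw [hci] at h1 h0; simp only [Bool.not_false] at h0; rw [h1, h0]; simp
    · rw [hci] at h1 h0; simp only [Bool.not_true] at h0; rw [h1, h0]; simp
  have hg : g = -o + P 0 (c 0) + P 1 (c 1) + P 2 (c 2) + P 3 (c 3) := by
    rw [hterm, hterm, hterm, hterm] at hb3
    rw [neg_one_smul] at hb3
    exact hb3
  have hPs : ∀ i, s i = P i (!(c i)) + P i (c i) := by
    intro i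
    rw [hP i]
    cases c i <;> simp [add_comm]
  let Y : Fin 3 → I → ℤ := fun i => - P (i.castSucc) (c i.castSucc)
  let X : Fin 3 → I → ℤ := fun i => P (i.castSucc) (!(c i.castSucc))
  have hsa : ∀ i : Fin 3, s i.castSucc = a i + o := by
    intro i; fin_cases i <;> rfl
  -- `b`
  have hbs : ∀ i j : Fin 3, b i ⬝ᵥ P j.castSucc (!(c j.castSucc)) +
      b i ⬝ᵥ P j.castSucc (c j.castSucc) = if i = j then 0 else 1 := by
    intro i j
    rw [← dotProduct_add, ← hPs, hsa, dotProduct_add, hba, hbo, add_zero]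
  have hbs3 : ∀ i : Fin 3, b i ⬝ᵥ P 3 (!(c 3)) + b i ⬝ᵥ P 3 (c 3) = 0 := by
    intro i
    rw [← dotProduct_add, ← hPs, s3, hbd]
  have hbg' : ∀ i, b i ⬝ᵥ P 0 (c 0) + b i ⬝ᵥ P 1 (c 1) + b i ⬝ᵥ P 2 (c 2) + b i ⬝ᵥ P 3 (c 3) = 2 := by
    intro i
    have := hbg i
    rw [hg] at this
    simp only [dotProduct_add, dotProduct_neg, hbo] at this
    omega
  have hsq : ∀ (v : I → ℤ) i, (v ⬝ᵥ P i true) ^ 2 + (v ⬝ᵥ P i false) ^ 2 =
      (v ⬝ᵥ P i (!(c i))) ^ 2 + (v ⬝ᵥ P i (c i)) ^ 2 := by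
    intro v i
    cases c i <;> simp [add_comm]
  have hbn : ∀ i, ((b i ⬝ᵥ P 0 (!(c 0))) ^ 2 + (b i ⬝ᵥ P 0 (c 0)) ^ 2) +
      ((b i ⬝ᵥ P 1 (!(c 1))) ^ 2 + (b i ⬝ᵥ P 1 (c 1)) ^ 2) +
      ((b i ⬝ᵥ P 2 (!(c 2))) ^ 2 + (b i ⬝ᵥ P 2 (c 2)) ^ 2) +
      ((b i ⬝ᵥ P 3 (!(c 3))) ^ 2 + (b i ⬝ᵥ P 3 (c 3)) ^ 2) ≤ 3 := by
    intro i
    have := (bessel _ hon (b i)).1
    rw [hsum, hbo, hbb, hsq, hsq, hsq, hsq] at this
    omega
  have arith : ∀ x1 y1 x2 y2 x3 y3 x4 y4 : ℤ, x1 + y1 = 0 → x2 + y2 = 1 → x3 + y3 = 1 →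
      x4 + y4 = 0 → y1 + y2 + y3 + y4 = 2 →
      (x1 ^ 2 + y1 ^ 2) + (x2 ^ 2 + y2 ^ 2) + (x3 ^ 2 + y3 ^ 2) + (x4 ^ 2 + y4 ^ 2) ≤ 3 →
      y1 = 0 ∧ y2 = 1 ∧ y3 = 1 := by
    intro x1 y1 x2 y2 x3 y3 x4 y4 h1 h2 h3 h4 h5 h6
    obtain ⟨k2, l2⟩ := odd_pair h2
    obtain ⟨k3, l3⟩ := odd_pair h3
    have e1 : x1 = -y1 := by omega
    have e4 : x4 = -y4 := by omega
    subst e1 e4
    have n1 := sq_nonneg y1
    have n4 := sq_nonneg y4
    have z1 : y1 ^ 2 = 0 := by nlinarith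
    have z4 : y4 ^ 2 = 0 := by nlinarith
    have z1' : y1 = 0 := pow_eq_zero_iff (two_ne_zero) |>.mp z1
    have z4' : y4 = 0 := pow_eq_zero_iff (two_ne_zero) |>.mp z4
    subst z1' z4'
    have m2 : x2 ^ 2 + y2 ^ 2 = 1 := three_pair h2 (by nlinarith)
    have m3 : x3 ^ 2 + y3 ^ 2 = 1 := three_pair h3 (by nlinarith)
    rcases l2 m2 with ⟨_, h7⟩ | ⟨_, h7⟩ <;> rcases l3 m3 with ⟨_, h8⟩ | ⟨_, h8⟩ <;> omega
  have hbY : ∀ i, b i ⬝ᵥ Y (i + 1) = -1 ∧ b i ⬝ᵥ Y (i + 2) = -1 := by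
    intro i
    have t0 : b i ⬝ᵥ P 0 (!(c 0)) + b i ⬝ᵥ P 0 (c 0) = if i = 0 then 0 else 1 := hbs i 0
    have t1 : b i ⬝ᵥ P 1 (!(c 1)) + b i ⬝ᵥ P 1 (c 1) = if i = 1 then 0 else 1 := hbs i 1
    have t2 : b i ⬝ᵥ P 2 (!(c 2)) + b i ⬝ᵥ P 2 (c 2) = if i = 2 then 0 else 1 := hbs i 2
    have t3 := hbs3 i
    have tg := hbg' i
    have tn := hbn i
    fin_cases i
    · obtain ⟨_, h2, h3⟩ := arith _ _ _ _ _ _ _ _ t0 t1 t2 t3 tg tn
      exact ⟨by simp only [Y, dotProduct_neg]; exact congrArg Neg.neg h2,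
        by simp only [Y, dotProduct_neg]; exact congrArg Neg.neg h3⟩
    · obtain ⟨_, h2, h3⟩ := arith _ _ _ _ _ _ _ _ t1 t2 t0 t3 (by linarith [tg])
        (by linarith [tn])
      exact ⟨by simp only [Y, dotProduct_neg]; exact congrArg Neg.neg h2,
        by simp only [Y, dotProduct_neg]; exact congrArg Neg.neg h3⟩
    · obtain ⟨_, h2, h3⟩ := arith _ _ _ _ _ _ _ _ t2 t0 t1 t3 (by linarith [tg])
        (by linarith [tn])
      exact ⟨by simp only [Y, dotProduct_neg]; exact congrArg Neg.neg h2,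
        by simp only [Y, dotProduct_neg]; exact congrArg Neg.neg h3⟩
  have hYY : ∀ i, Y i ⬝ᵥ Y i = 1 := fun i => by
    simp only [Y, neg_dotProduct, dotProduct_neg, neg_neg]; exact hPP _ _
  have hYij : ∀ i j, i ≠ j → Y i ⬝ᵥ Y j = 0 := by
    intro i j hij
    simp only [Y, neg_dotProduct, dotProduct_neg, neg_neg]
    apply hPne
    intro h
    exact hij (Fin.castSucc_injective _ (Prod.ext_iff.mp h).1)
  refine ⟨X, Y, fun i => b i + Y (i + 1) + Y (i + 2), P 3 (c 3), fun i => hPP _ _, hYY, ?_,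
    hPP _ _, ?_, ?_, ?_, ?_, hYij, ?_⟩
  · intro i
    have h1 : (i + 1 : Fin 3) ≠ i + 2 := by fin_cases i <;> decide
    have h2 : Y (i + 1) ⬝ᵥ b i = -1 := by rw [dotProduct_comm]; exact (hbY i).1
    have h3 : Y (i + 2) ⬝ᵥ b i = -1 := by rw [dotProduct_comm]; exact (hbY i).2
    simp only [add_dotProduct, dotProduct_add, hbb, (hbY i).1, (hbY i).2, hYY, h2, h3,
      hYij _ _ h1, hYij _ _ h1.symm]
    norm_num
  · intro i
    have h1 := hPs i.castSucc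
    rw [hsa] at h1
    have h2 : a i = P i.castSucc (!(c i.castSucc)) + P i.castSucc (c i.castSucc) - o := by
      rw [← h1]; abel
    simp only [X, Y]
    rw [h2]; abel
  · intro i; dsimp only; abel
  · simp only [Y]
    rw [hg]
    simp only [sub_neg_eq_add]
    have e0 : (Fin.castSucc (0 : Fin 3)) = 0 := rfl
    have e1 : (Fin.castSucc (1 : Fin 3)) = 1 := rfl
    have e2 : (Fin.castSucc (2 : Fin 3)) = 2 := rfl
    rw [e0, e1, e2]
    abel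
  · intro i
    simp only [Y, neg_dotProduct, hPo, neg_zero]
  · intro i j
    simp only [Y, X, neg_dotProduct, neg_eq_zero]
    apply hPne
    intro h
    obtain ⟨h1, h2⟩ := Prod.ext_iff.mp h
    simp only at h1 h2
    rw [h1] at h2
    cases hcc : c j.castSucc <;> rw [hcc] at h2 <;> exact Bool.noConfusion h2

end Vec

end Cfsg.Agent.H21.Exc
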