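import Mathlib

/-!
# The algebra of the exceptional characters for `3^3 : 2^2`
-/

set_option autoImplicit false

namespace Cfsg.Agent.H21.Exc

theorem alg_conv_A {a y r : ℂ} (hy : y ≠ 0) (hy' : 1 + y ≠ 0)
    (h : (1 + a) ^ 2 / (1 + y) - 1 - a ^ 2 / y = -r) :
    (1 - a / y) ^ 2 * y = r * (1 + y) := by
  field_simp at h ⊢
  linear_combination -h

theorem alg_conv_B {a b y z r : ℂ} (hy : y ≠ 0) (hz : z ≠ 0) (hyz : y + z ≠ 0)
    (h : (a + b) ^ 2 / (y + z) - a ^ 2 / y - b ^ 2 / z = -r) :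
    ((1 - a / y) - (1 - b / z)) ^ 2 * (y * z) = r * (y + z) := by
  field_simp at h ⊢
  linear_combination -h

theorem alg_conv_G {a1 a2 a3 y1 y2 y3 r : ℂ} (h1 : y1 ≠ 0) (h2 : y2 ≠ 0) (h3 : y3 ≠ 0)
    (hs : 1 + y1 + y2 + y3 ≠ 0)
    (h : (1 + a1 + a2 + a3) ^ 2 / (1 + y1 + y2 + y3) - 1 - a1 ^ 2 / y1 - a2 ^ 2 / y2 -
      a3 ^ 2 / y3 = -r) :
    (1 - a1 / y1) ^ 2 * y1 + (1 - a2 / y2) ^ 2 * y2 + (1 - a3 / y3) ^ 2 * y3 +
      ((1 - a2 / y2) - (1 - a3 / y3)) ^ 2 * (y2 * y3) +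
      ((1 - a1 / y1) - (1 - a3 / y3)) ^ 2 * (y1 * y3) +
      ((1 - a1 / y1) - (1 - a2 / y2)) ^ 2 * (y1 * y2) = r * (1 + y1 + y2 + y3) := by
  field_simp at h ⊢
  linear_combination -h

theorem alg_core {p1 p2 p3 y1 y2 y3 c e2 e3 : ℂ} (h1 : y1 ≠ 0) (h2 : y2 ≠ 0) (h3 : y3 ≠ 0)
    (h1' : 1 + y1 ≠ 0) (h2' : 1 + y2 ≠ 0) (h3' : 1 + y3 ≠ 0) (hc : c ≠ 0)
    (he2 : e2 = 0 ∨ e2 = 1) (he3 : e3 = 0 ∨ e3 = 1)
    (u1 : p1 ^ 2 * y1 = c * (e2 + e3) ^ 2 * (1 + y1))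
    (u2 : p2 ^ 2 * y2 = c * (1 + e3) ^ 2 * (1 + y2))
    (u3 : p3 ^ 2 * y3 = c * (1 + e2) ^ 2 * (1 + y3))
    (w1 : (p2 - p3) ^ 2 * (y2 * y3) = c * (e2 - e3) ^ 2 * (y2 + y3))
    (w2 : (p1 - p3) ^ 2 * (y1 * y3) = c * (1 - e3) ^ 2 * (y1 + y3))
    (w3 : (p1 - p2) ^ 2 * (y1 * y2) = c * (1 - e2) ^ 2 * (y1 + y2))
    (hg : p1 ^ 2 * y1 + p2 ^ 2 * y2 + p3 ^ 2 * y3 + (p2 - p3) ^ 2 * (y2 * y3) +
      (p1 - p3) ^ 2 * (y1 * y3) + (p1 - p2) ^ 2 * (y1 * y2) =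
      2 * c * (1 + e2 + e3) * (1 + y1 + y2 + y3)) : y1 = 1 := by
  have sqz : ∀ x : ℂ, x ^ 2 = 0 → x = 0 := fun x h => pow_eq_zero_iff two_ne_zero |>.mp h
  -- the case with exactly two fused
  have two : ∀ p q y1 y2 y3 : ℂ, y1 ≠ 0 → y2 ≠ 0 → y3 ≠ 0 → 1 + y1 ≠ 0 →
      p ^ 2 * y1 = c * (1 + y1) → p ^ 2 * y2 = c * (1 + y2) → q ^ 2 * y3 = c * 4 * (1 + y3) →
      (p - q) ^ 2 * (y1 * y3) = c * (y1 + y3) → (p - q) ^ 2 * (y2 * y3) = c * (y2 + y3) →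
      c * (1 + y1) + c * (1 + y2) + c * 4 * (1 + y3) + c * (y1 + y3) + c * (y2 + y3) =
        4 * c * (1 + y1 + y2 + y3) → y1 = 1 := by
    intro p q y1 y2 y3 h1 h2 h3 h1' a1 a2 a3 b1 b2 hs
    have hp : p ^ 2 ≠ 0 := by
      intro h; rw [h, zero_mul] at a1
      exact (mul_ne_zero hc h1') a1.symm
    have e12 : y1 = y2 := by
      have : c * (y1 - y2) = 0 := by linear_combination y2 * a1 - y1 * a2
      rcases mul_eq_zero.mp this with h | h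
      · exact absurd h hc
      · exact sub_eq_zero.mp h
    subst e12
    have hy3 : y3 = 2 * y1 - 1 := by
      have : c * (y3 - (2 * y1 - 1)) = 0 := by linear_combination hs / 2
      rcases mul_eq_zero.mp this with h | h
      · exact absurd h hc
      · exact sub_eq_zero.mp h
    subst hy3
    have k1 : p * q * (2 * y1 - 1) = c * (5 * y1 - 1) := by
      have : y1 * (p * q * (2 * y1 - 1) - c * (5 * y1 - 1)) = 0 := by
        linear_combination (2 * y1 - 1) / 2 * a1 + y1 / 2 * a3 - b1 / 2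
      rcases mul_eq_zero.mp this with h | h
      · exact absurd h h1
      · exact sub_eq_zero.mp h
    have k2 : p ^ 2 * q ^ 2 * (2 * y1 - 1) = 8 * c ^ 2 * (1 + y1) := by
      have : y1 * (p ^ 2 * q ^ 2 * (2 * y1 - 1) - 8 * c ^ 2 * (1 + y1)) = 0 := by
        linear_combination q ^ 2 * (2 * y1 - 1) * a1 + c * (1 + y1) * a3
      rcases mul_eq_zero.mp this with h | h
      · exact absurd h h1
      · exact sub_eq_zero.mp h
    have k3 : c ^ 2 * (y1 - 1) ^ 2 = 0 := by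
      linear_combination (-1 / 9 : ℂ) * (p * q * (2 * y1 - 1) + c * (5 * y1 - 1)) * k1 +
        (1 / 9 : ℂ) * (2 * y1 - 1) * k2
    rcases mul_eq_zero.mp k3 with h | h
    · exact absurd (sqz _ h) hc
    · exact sub_eq_zero.mp (sqz _ h)
  rcases he2 with rfl | rfl <;> rcases he3 with rfl | rfl
  · -- (1,0,0)
    have z1 : p1 = 0 := by
      apply sqz
      have : p1 ^ 2 * y1 = 0 := by rw [u1]; ring
      exact (mul_eq_zero.mp this).resolve_right h1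
    subst z1
    have z2 : p2 - p3 = 0 := by
      apply sqz
      have : (p2 - p3) ^ 2 * (y2 * y3) = 0 := by rw [w1]; ring
      exact (mul_eq_zero.mp this).resolve_right (mul_ne_zero h2 h3)
    have z3 : p3 = p2 := (sub_eq_zero.mp z2).symm
    subst z3
    have k1 : y2 = y3 := by
      have : c * (y2 - y3) = 0 := by linear_combination y3 * u2 - y2 * u3
      rcases mul_eq_zero.mp this with h | h
      · exact absurd h hc
      · exact sub_eq_zero.mp h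
    subst k1
    have : c * y2 * (y1 - 1) = 0 := by linear_combination w2 - y1 * u2
    rcases mul_eq_zero.mp this with h | h
    · exact absurd h (mul_ne_zero hc h2)
    · exact sub_eq_zero.mp h
  · -- (1,0,1)
    have z2 : p1 - p3 = 0 := by
      apply sqz
      have : (p1 - p3) ^ 2 * (y1 * y3) = 0 := by rw [w2]; ring
      exact (mul_eq_zero.mp this).resolve_right (mul_ne_zero h1 h3)
    have z3 : p3 = p1 := (sub_eq_zero.mp z2).symm
    subst z3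
    rw [u1, u2, u3, w1, w2, w3] at hg
    refine two p3 p2 y1 y3 y2 h1 h3 h2 h1' ?_ ?_ ?_ ?_ ?_ ?_
    · linear_combination u1
    · linear_combination u3
    · linear_combination u2
    · linear_combination w3
    · linear_combination w1
    · linear_combination hg
  · -- (1,1,0)
    have z2 : p1 - p2 = 0 := by
      apply sqz
      have : (p1 - p2) ^ 2 * (y1 * y2) = 0 := by rw [w3]; ring
      exact (mul_eq_zero.mp this).resolve_right (mul_ne_zero h1 h2)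
    have z3 : p2 = p1 := (sub_eq_zero.mp z2).symm
    subst z3
    rw [u1, u2, u3, w1, w2, w3] at hg
    refine two p2 p3 y1 y2 y3 h1 h2 h3 h1' ?_ ?_ ?_ ?_ ?_ ?_
    · linear_combination u1
    · linear_combination u2
    · linear_combination u3
    · linear_combination w2
    · linear_combination w1
    · linear_combination hg
  · -- (1,1,1)
    have z2 : p1 - p2 = 0 := by
      apply sqz
      have : (p1 - p2) ^ 2 * (y1 * y2) = 0 := by rw [w3]; ring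
      exact (mul_eq_zero.mp this).resolve_right (mul_ne_zero h1 h2)
    have z3 : p2 = p1 := (sub_eq_zero.mp z2).symm
    subst z3
    have z4 : p2 - p3 = 0 := by
      apply sqz
      have : (p2 - p3) ^ 2 * (y2 * y3) = 0 := by rw [w1]; ring
      exact (mul_eq_zero.mp this).resolve_right (mul_ne_zero h2 h3)
    have z5 : p3 = p2 := (sub_eq_zero.mp z4).symm
    subst z5
    have k1 : y1 = y2 := by
      have : 4 * c * (y1 - y2) = 0 := by linear_combination y2 * u1 - y1 * u2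
      rcases mul_eq_zero.mp this with h | h
      · exact absurd h (mul_ne_zero (by norm_num) hc)
      · exact sub_eq_zero.mp h
    have k2 : y1 = y3 := by
      have : 4 * c * (y1 - y3) = 0 := by linear_combination y3 * u1 - y1 * u3
      rcases mul_eq_zero.mp this with h | h
      · exact absurd h (mul_ne_zero (by norm_num) hc)
      · exact sub_eq_zero.mp h
    subst k1 k2
    rw [u1, w1] at hg
    have : c * (y1 - 1) = 0 := by linear_combination -hg / 6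
    rcases mul_eq_zero.mp this with h | h
    · exact absurd h hc
    · exact sub_eq_zero.mp h

theorem alg {a1 a2 a3 y1 y2 y3 c e2 e3 : ℂ} (h1 : y1 ≠ 0) (h2 : y2 ≠ 0) (h3 : y3 ≠ 0)
    (h1' : 1 + y1 ≠ 0) (h2' : 1 + y2 ≠ 0) (h3' : 1 + y3 ≠ 0) (h23 : y2 + y3 ≠ 0)
    (h13 : y1 + y3 ≠ 0) (h12 : y1 + y2 ≠ 0) (hs : 1 + y1 + y2 + y3 ≠ 0) (hc : c ≠ 0)
    (he2 : e2 = 0 ∨ e2 = 1) (he3 : e3 = 0 ∨ e3 = 1)
    (A1 : (1 + a1) ^ 2 / (1 + y1) - 1 - a1 ^ 2 / y1 = -(c * (e2 + e3) ^ 2))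
    (A2 : (1 + a2) ^ 2 / (1 + y2) - 1 - a2 ^ 2 / y2 = -(c * (1 + e3) ^ 2))
    (A3 : (1 + a3) ^ 2 / (1 + y3) - 1 - a3 ^ 2 / y3 = -(c * (1 + e2) ^ 2))
    (B1 : (a2 + a3) ^ 2 / (y2 + y3) - a2 ^ 2 / y2 - a3 ^ 2 / y3 = -(c * (e2 - e3) ^ 2))
    (B2 : (a1 + a3) ^ 2 / (y1 + y3) - a1 ^ 2 / y1 - a3 ^ 2 / y3 = -(c * (1 - e3) ^ 2))
    (B3 : (a1 + a2) ^ 2 / (y1 + y2) - a1 ^ 2 / y1 - a2 ^ 2 / y2 = -(c * (1 - e2) ^ 2))
    (hg : (1 + a1 + a2 + a3) ^ 2 / (1 + y1 + y2 + y3) - 1 - a1 ^ 2 / y1 - a2 ^ 2 / y2 -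
      a3 ^ 2 / y3 = -(2 * c * (1 + e2 + e3))) : y1 = 1 :=
  alg_core h1 h2 h3 h1' h2' h3' hc he2 he3 (alg_conv_A h1 h1' A1) (alg_conv_A h2 h2' A2)
    (alg_conv_A h3 h3' A3) (alg_conv_B h2 h3 h23 B1) (alg_conv_B h1 h3 h13 B2)
    (alg_conv_B h1 h2 h12 B3) (alg_conv_G h1 h2 h3 hs hg)

end Cfsg.Agent.H21.Exc
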