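import Mathlib
import Cfsg.Agent.H21_Exc

/-!
# The model of the group `3^3 : 2^2`
-/

set_option autoImplicit false

namespace Cfsg.Agent.H21.Exc701

open DihedralGroup Equiv

abbrev D := DihedralGroup 3
abbrev P := D × D × D

def sgn : D → ℤ
  | r _ => 1
  | sr _ => -1

def sig : D → ℤ
  | r i => if i = 0 then 2 else -1
  | sr _ => 0

theorem sgn_mul (a b : D) : sgn (a * b) = sgn a * sgn b := by
  revert a b; decide

def sgnHom : D →* ℤ where
  toFun := sgn
  map_one' := rfl
  map_mul' := sgn_mul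

def sp (p : P) : ℤ := sgn p.1 * sgn p.2.1 * sgn p.2.2

def spHom : P →* ℤ where
  toFun := sp
  map_one' := rfl
  map_mul' a b := by simp only [sp, Prod.fst_mul, Prod.snd_mul, sgn_mul]; ring

/-- the subgroup of index 2 -/
def M : Subgroup P := spHom.ker

theorem mem_M (p : P) : p ∈ M ↔ sp p = 1 := MonoidHom.mem_ker

/-- 3-cycles and transpositions -/
def xx : Fin 3 → Perm (Fin 9) :=
  ![Equiv.swap (0 : Fin 9) 1 * Equiv.swap 1 2, Equiv.swap (3 : Fin 9) 4 * Equiv.swap 4 5,
    Equiv.swap (6 : Fin 9) 7 * Equiv.swap 7 8]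
def ss : Fin 3 → Perm (Fin 9) := ![Equiv.swap (0 : Fin 9) 1, Equiv.swap 3 4, Equiv.swap 6 7]

def blkf (k : Fin 3) : D → Perm (Fin 9)
  | r i => xx k ^ i.val
  | sr i => ss k * xx k ^ i.val

theorem blk_mul (k : Fin 3) (a b : D) : blkf k (a * b) = blkf k a * blkf k b := by
  revert k a b
  decide +kernel

theorem blk_comm (k l : Fin 3) (h : k ≠ l) (a b : D) : blkf k a * blkf l b = blkf l b * blkf k a := by
  revert k l a b
  decide +kernel

def F : P →* Perm (Fin 9) where
  toFun p := blkf 0 p.1 * blkf 1 p.2.1 * blkf 2 p.2.2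
  map_one' := by decide +kernel
  map_mul' p q := by
    simp only [Prod.fst_mul, Prod.snd_mul, blk_mul]
    have h1 := blk_comm 0 1 (by decide) q.1 p.2.1
    have h2 := blk_comm 0 2 (by decide) q.1 p.2.2
    have h3 := blk_comm 1 2 (by decide) q.2.1 p.2.2
    calc blkf 0 p.1 * blkf 0 q.1 * (blkf 1 p.2.1 * blkf 1 q.2.1) * (blkf 2 p.2.2 * blkf 2 q.2.2)
        = blkf 0 p.1 * (blkf 0 q.1 * blkf 1 p.2.1) * (blkf 1 q.2.1 * blkf 2 p.2.2) *
          blkf 2 q.2.2 := by simp only [mul_assoc]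
      _ = blkf 0 p.1 * blkf 1 p.2.1 * (blkf 0 q.1 * blkf 2 p.2.2) * blkf 1 q.2.1 *
          blkf 2 q.2.2 := by rw [h1, h3]; simp only [mul_assoc]
      _ = _ := by rw [h2]; simp only [mul_assoc]

theorem F_inj : Function.Injective F := by
  rw [injective_iff_map_eq_one]
  have : ∀ p : P, blkf 0 p.1 * blkf 1 p.2.1 * blkf 2 p.2.2 = 1 → p = 1 := by decide +kernel
  exact this

def VV : Fin 4 → P := ![1, (sr 0, sr 0, 1), (sr 0, 1, sr 0), (1, sr 0, sr 0)]

theorem decomp : ∀ p : P, sp p = 1 → ∃ (v : Fin 4) (a b c : ZMod 3),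
    p = (r a, r b, r c) * VV v := by decide +kernel

def gens : Set (Perm (Fin 9)) :=
  {Equiv.swap (0 : Fin 9) 1 * Equiv.swap 1 2, Equiv.swap (3 : Fin 9) 4 * Equiv.swap 4 5,
    Equiv.swap (6 : Fin 9) 7 * Equiv.swap 7 8,
        Equiv.swap (0 : Fin 9) 1 * Equiv.swap 3 4, Equiv.swap (0 : Fin 9) 1 * Equiv.swap 6 7}

theorem closure_eq : Subgroup.closure gens = M.map F := by
  apply le_antisymm
  · rw [Subgroup.closure_le]
    intro g hg
    simp only [gens, Set.mem_insert_iff, Set.mem_singleton_iff] at hg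
    rcases hg with rfl | rfl | rfl | rfl | rfl
    · exact ⟨(r 1, 1, 1), (mem_M _).mpr (by decide), by decide +kernel⟩
    · exact ⟨(1, r 1, 1), (mem_M _).mpr (by decide), by decide +kernel⟩
    · exact ⟨(1, 1, r 1), (mem_M _).mpr (by decide), by decide +kernel⟩
    · exact ⟨(sr 0, sr 0, 1), (mem_M _).mpr (by decide), by decide +kernel⟩
    · exact ⟨(sr 0, 1, sr 0), (mem_M _).mpr (by decide), by decide +kernel⟩
  · rintro _ ⟨p, hp, rfl⟩
    obtain ⟨v, a, b, c, rfl⟩ := decomp p ((mem_M p).mp hp)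
    rw [map_mul]
    have g0 : xx 0 ∈ Subgroup.closure gens := Subgroup.subset_closure (by simp [gens, xx])
    have g1 : xx 1 ∈ Subgroup.closure gens := Subgroup.subset_closure (by simp [gens, xx])
    have g2 : xx 2 ∈ Subgroup.closure gens := Subgroup.subset_closure (by simp [gens, xx])
    have g3 : Equiv.swap (0 : Fin 9) 1 * Equiv.swap 3 4 ∈ Subgroup.closure gens :=
      Subgroup.subset_closure (by simp [gens])
    have g4 : Equiv.swap (0 : Fin 9) 1 * Equiv.swap 6 7 ∈ Subgroup.closure gens :=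
      Subgroup.subset_closure (by simp [gens])
    apply Subgroup.mul_mem
    · have : F (r a, r b, r c) = xx 0 ^ a.val * xx 1 ^ b.val * xx 2 ^ c.val := rfl
      rw [this]
      exact Subgroup.mul_mem _ (Subgroup.mul_mem _ (Subgroup.pow_mem _ g0 _)
        (Subgroup.pow_mem _ g1 _)) (Subgroup.pow_mem _ g2 _)
    · fin_cases v
      · have : F (VV 0) = 1 := by decide +kernel
        exact this ▸ Subgroup.one_mem _
      · have : F (VV 1) = Equiv.swap (0 : Fin 9) 1 * Equiv.swap 3 4 := by decide +kernel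
        exact this ▸ g3
      · have : F (VV 2) = Equiv.swap (0 : Fin 9) 1 * Equiv.swap 6 7 := by decide +kernel
        exact this ▸ g4
      · have : F (VV 3) = (Equiv.swap (0 : Fin 9) 1 * Equiv.swap 3 4) *
          (Equiv.swap (0 : Fin 9) 1 * Equiv.swap 6 7) := by decide +kernel
        exact this ▸ Subgroup.mul_mem _ g3 g4

theorem exists_j {H : Type*} [Group H] (h : Nonempty (H ≃* ↥(Subgroup.closure gens))) :
    ∃ j : H →* P, Function.Injective j ∧ ∀ p, p ∈ j.range ↔ sp p = 1 := by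
  obtain ⟨e⟩ := h
  let e2 : ↥(Subgroup.closure gens) ≃* ↥(M.map F) := MulEquiv.subgroupCongr closure_eq
  let e3 : ↥(M.map F) ≃* ↥M := (M.equivMapOfInjective F F_inj).symm
  let e4 : H ≃* ↥M := (e.trans e2).trans e3
  refine ⟨M.subtype.comp e4.toMonoidHom, ?_, ?_⟩
  · intro x y hxy
    exact e4.injective (Subtype.ext hxy)
  · intro p
    rw [← mem_M, MonoidHom.mem_range]
    constructor
    · rintro ⟨x, rfl⟩; exact (e4 x).2
    · intro hp; exact ⟨e4.symm ⟨p, hp⟩, by simp⟩

end Cfsg.Agent.H21.Exc701
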