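import Mathlib
import Cfsg.Agent.H21_Exc701c
import Cfsg.Agent.H3_CharPerm

/-!
# Characters on the model
-/

set_option autoImplicit false

namespace Cfsg.Agent.H21.Exc701

open DihedralGroup Equiv Cfsg Cfsg.Agent.H3.CharIrr Cfsg.Agent.H3.CharComplete Cfsg.Agent.H3.CharInd
  Cfsg.Agent.H3.CharMult Cfsg.Agent.H3.CharPerm

/-- coordinates -/
def co : Fin 3 → P → D := ![fun p => p.1, fun p => p.2.1, fun p => p.2.2]

def Af (i : Fin 3) (p : P) : ℤ := sig (co i p) - 1 - sgn (co i p)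
def Bf (i : Fin 3) (p : P) : ℤ := sgn (co (i + 1) p) * Af i p
def Gf (p : P) : ℤ := sig p.1 * sig p.2.1 - 1 - sgn p.1 - sgn p.2.1 - sgn p.2.2
def Df (p : P) : ℤ := sig p.1 * (sig p.2.1 - sig p.2.2)

def Sm (f : P → ℤ) : ℤ := ∑ p : P, if sp p = 1 then f p else 0

theorem S_one : Sm (fun _ => 1) = 108 := by decide +kernel
theorem S_AA : ∀ i j : Fin 3, Sm (fun p => Af i p * Af j p) = if i = j then 324 else 108 := by
  decide +kernel
theorem S_BB : ∀ i : Fin 3, Sm (fun p => Bf i p * Bf i p) = 324 := by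
  decide +kernel
theorem S_BA : ∀ i j : Fin 3, Sm (fun p => Bf i p * Af j p) = if i = j then 0 else 108 := by
  decide +kernel
theorem S_A : ∀ i : Fin 3, Sm (fun p => Af i p * 1) = -108 := by
  decide +kernel
theorem S_B : ∀ i : Fin 3, Sm (fun p => Bf i p * 1) = 0 := by
  decide +kernel
theorem S_GG : Sm (fun p => Gf p * Gf p) = 540 := by
  decide +kernel
theorem S_G : Sm (fun p => Gf p * 1) = -108 := by
  decide +kernel
theorem S_GA : ∀ i : Fin 3, Sm (fun p => Gf p * Af i p) = 216 := by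
  decide +kernel
theorem S_BG : ∀ i : Fin 3, Sm (fun p => Bf i p * Gf p) = 216 := by
  decide +kernel
theorem S_DD : Sm (fun p => Df p * Df p) = 216 := by
  decide +kernel
theorem S_D : Sm (fun p => Df p * 1) = 0 := by
  decide +kernel
theorem S_AD : ∀ i : Fin 3, Sm (fun p => Af i p * Df p) = 0 := by
  decide +kernel
theorem S_BD : ∀ i : Fin 3, Sm (fun p => Bf i p * Df p) = 0 := by
  decide +kernel
theorem S_GD : Sm (fun p => Gf p * Df p) = 108 := by
  decide +kernel

theorem A_reg : ∀ p : P, sp p = 1 → p * p = 1 → ∀ i : Fin 3, Af i p = 0 := by decide +kernel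
theorem B_reg : ∀ p : P, sp p = 1 → p * p = 1 → ∀ i : Fin 3, Bf i p = 0 := by decide +kernel
theorem G_reg : ∀ p : P, sp p = 1 → p * p = 1 → Gf p = 0 := by decide +kernel
theorem D_reg : ∀ p : P, sp p = 1 → p * p = 1 → Df p = 0 := by decide +kernel

/-- involutions -/
def iv : Fin 3 × ZMod 3 × ZMod 3 → P
  | (0, a, b) => (1, sr a, sr b)
  | (1, a, b) => (sr a, 1, sr b)
  | (2, a, b) => (sr a, sr b, 1)

theorem iv_inj : Function.Injective iv := by
  have : ∀ x y, iv x = iv y → x = y := by decide +kernel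
  exact this

theorem iv_sp : ∀ k, sp (iv k) = 1 := by decide +kernel
theorem iv_sq : ∀ k, iv k * iv k = 1 := by decide +kernel

theorem eq_iv : ∀ p : P, sp p = 1 → p * p = 1 → p ≠ 1 → ∃ k, p = iv k := by decide +kernel

theorem iv_conj : ∀ k, ∃ m, sp m = 1 ∧ m * iv (k.1, 0, 0) * m⁻¹ = iv k := by decide +kernel

theorem Q_A : ∀ n i j : Fin 3, ∑ a : ZMod 3 × ZMod 3, ∑ b : ZMod 3 × ZMod 3,
    Af n (iv (i, a) * iv (j, b)) = if i = n ∨ j = n then 0 else -162 := by decide +kernel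

theorem Q_B : ∀ n i j : Fin 3, ∑ a : ZMod 3 × ZMod 3, ∑ b : ZMod 3 × ZMod 3,
    Bf n (iv (i, a) * iv (j, b)) = if i = n ∨ j = n then 0 else if i = j then -162 else 162 := by
  decide +kernel

theorem Q_G : ∀ i j : Fin 3, ∑ a : ZMod 3 × ZMod 3, ∑ b : ZMod 3 × ZMod 3,
    Gf (iv (i, a) * iv (j, b)) = if i = j then -324 else 0 := by
  decide +kernel

end Cfsg.Agent.H21.Exc701
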