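import Mathlib
import Cfsg.Agent.H21_Exc701d
import Cfsg.Agent.H21_Exc

/-!
# Generalized characters of `3^3 : 2^2`
-/

set_option autoImplicit false

open scoped ComplexConjugate

namespace Cfsg.Agent.H21.Exc701

open DihedralGroup Equiv Cfsg Cfsg.Agent.H3.CharIrr Cfsg.Agent.H3.CharComplete Cfsg.Agent.H3.CharInd
  Cfsg.Agent.H3.CharMult Cfsg.Agent.H3.CharPerm

def actf : D → ZMod 3 → ZMod 3
  | r i, x => x + i
  | sr i, x => -i - x

theorem actf_mul : ∀ (a b : D) (x : ZMod 3), actf (a * b) x = actf a (actf b x) := by decide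
theorem actf_one : ∀ (x : ZMod 3), actf 1 x = x := by decide

theorem card_fix : ∀ a : D, ((Finset.univ.filter (fun x => actf a x = x)).card : ℤ) = sig a + 1 := by
  decide

theorem gen_sig : IsGeneralizedCharacter D (fun x => ((sig x : ℤ) : ℂ)) := by
  letI : MulAction D (ZMod 3) :=
    { smul := actf, one_smul := actf_one, mul_smul := actf_mul }
  have h1 := IsGen.sub (IsGen.of_char (isCharacter_perm D (ZMod 3))) (IsGen.of_irr (isIrr_one (G := D)))
  convert h1 using 1
  ext a
  rw [Pi.sub_apply]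
  have h2 : Nat.card (MulAction.fixedBy (ZMod 3) a) =
      (Finset.univ.filter (fun x => actf a x = x)).card := by
    rw [Nat.card_eq_fintype_card, Fintype.card_ofFinset]
    rfl
  have h3 := card_fix a
  rw [h2]
  have h4 : ((Finset.univ.filter (fun x => actf a x = x)).card : ℂ) = ((sig a + 1 : ℤ) : ℂ) := by
    rw [← h3]; simp
  rw [h4]; push_cast; ring

theorem gen_sgn : IsGeneralizedCharacter D (fun x => ((sgn x : ℤ) : ℂ)) := by
  have h1 := isIrr_of_hom ((Int.castRingHom ℂ : ℤ →* ℂ).comp sgnHom)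
  exact IsGen.of_irr h1

variable {H : Type*} [Group H] [Fintype H] (j : H →* P)

/-- pull back -/
def fn (f : P → ℤ) (h : H) : ℂ := (f (j h) : ℂ)

def coHom (i : Fin 3) : P →* D :=
  ![MonoidHom.fst D (D × D), (MonoidHom.fst D D).comp (MonoidHom.snd D (D × D)),
    (MonoidHom.snd D D).comp (MonoidHom.snd D (D × D))] i

theorem coHom_apply (i : Fin 3) (p : P) : coHom i p = co i p := by
  fin_cases i <;> rfl

theorem gen_sig_co (i : Fin 3) : IsGeneralizedCharacter H (fun h => ((sig (co i (j h)) : ℤ) : ℂ)) := by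
  have := IsGen.comp gen_sig ((coHom i).comp j)
  convert this using 3
  rw [MonoidHom.comp_apply, coHom_apply]

theorem gen_sgn_co (i : Fin 3) : IsGeneralizedCharacter H (fun h => ((sgn (co i (j h)) : ℤ) : ℂ)) := by
  have := IsGen.comp gen_sgn ((coHom i).comp j)
  convert this using 3
  rw [MonoidHom.comp_apply, coHom_apply]

theorem gen_one : IsGeneralizedCharacter H (fun _ => 1 : H → ℂ) := IsGen.of_irr isIrr_one

theorem gen_A (i : Fin 3) : IsGeneralizedCharacter H (fn j (Af i)) := by
  have := IsGen.sub (IsGen.sub (gen_sig_co j i) gen_one) (gen_sgn_co j i)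
  convert this using 1
  ext h
  simp [fn, Af]

theorem gen_B (i : Fin 3) : IsGeneralizedCharacter H (fn j (Bf i)) := by
  have := IsGen.mul (gen_sgn_co j (i + 1)) (gen_A j i)
  convert this using 1
  ext h
  simp [fn, Bf]

theorem gen_G : IsGeneralizedCharacter H (fn j Gf) := by
  have := IsGen.sub (IsGen.sub (IsGen.sub (IsGen.sub (IsGen.mul (gen_sig_co j 0) (gen_sig_co j 1))
    gen_one) (gen_sgn_co j 0)) (gen_sgn_co j 1)) (gen_sgn_co j 2)
  convert this using 1
  ext h
  simp [fn, Gf, co]

theorem gen_D : IsGeneralizedCharacter H (fn j Df) := by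
  have := IsGen.mul (gen_sig_co j 0) (IsGen.sub (gen_sig_co j 1) (gen_sig_co j 2))
  convert this using 1
  ext h
  simp [fn, Df, co]

variable {j} (hj : Function.Injective j) (hr : ∀ p, p ∈ j.range ↔ sp p = 1)

include hj hr in
theorem sum_j {K : Type*} [AddCommMonoid K] (f : P → K) :
    ∑ h : H, f (j h) = ∑ p : P, if sp p = 1 then f p else 0 := by
  classical
  rw [← Finset.sum_filter]
  symm
  refine Finset.sum_bij' (fun p hp => ((hr p).mpr (Finset.mem_filter.mp hp).2).choose)
    (fun h _ => j h) ?_ ?_ ?_ ?_ ?_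
  · intro p hp; exact Finset.mem_univ _
  · intro h _
    exact Finset.mem_filter.mpr ⟨Finset.mem_univ _, (hr _).mp ⟨h, rfl⟩⟩
  · intro p hp; exact ((hr p).mpr (Finset.mem_filter.mp hp).2).choose_spec
  · intro h _
    apply hj
    exact ((hr (j h)).mpr ((hr _).mp ⟨h, rfl⟩)).choose_spec
  · intro p hp
    rw [((hr p).mpr (Finset.mem_filter.mp hp).2).choose_spec]

include hj hr in
theorem card_H : Nat.card H = 108 := by
  have h1 := sum_j hj hr (fun _ => (1 : ℤ))
  have h2 := S_one
  rw [Sm] at h2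
  rw [h2, Finset.sum_const, Finset.card_univ, nsmul_eq_mul, mul_one] at h1
  rw [Nat.card_eq_fintype_card]
  exact_mod_cast h1

include hj hr in
theorem ci_fn (f g : P → ℤ) (n : ℤ) (hn : Sm (fun p => f p * g p) = 108 * n) :
    classInner (fn j f) (fn j g) = n := by
  rw [classInner, card_H hj hr]
  have h1 := sum_j hj hr (fun p => f p * g p)
  rw [Sm] at hn
  rw [hn] at h1
  have h2 : ∑ h : H, fn j f h * conj (fn j g h) = ((∑ h : H, f (j h) * g (j h) : ℤ) : ℂ) := by
    push_cast
    refine Finset.sum_congr rfl fun h _ => ?_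
    simp [fn]
  rw [h2, h1]
  push_cast
  field_simp

include hj hr in
theorem ci_fn_one (f : P → ℤ) (n : ℤ) (hn : Sm (fun p => f p * 1) = 108 * n) :
    classInner (fn j f) (fun _ : H => (1 : ℂ)) = n := by
  have := ci_fn hj hr f (fun _ => 1) n hn
  rw [← this]
  congr 1
  ext h
  simp [fn]

end Cfsg.Agent.H21.Exc701
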