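import Mathlib
import Cfsg.Agent.H1_Partition

/-!
# Final group theory step for exceptional characters
-/

set_option autoImplicit false

namespace Cfsg.Agent.H21.Exc

/-- a self normalizing `p`-subgroup is Sylow -/
theorem exists_sylow_of_normalizer {N : Type*} [Group N] [Finite N] {p : ℕ} [hp : Fact p.Prime]
    (T : Subgroup N) (hT : IsPGroup p T) (hN : Subgroup.normalizer (T : Set N) ≤ T) :
    ∃ P : Sylow p N, (P : Subgroup N) = T := by
  obtain ⟨n, hn⟩ := IsPGroup.iff_card.mp hT
  have h1 : ¬ p ^ (n + 1) ∣ Nat.card N := by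
    intro hd
    have h2 := Sylow.prime_dvd_card_quotient_normalizer hd hn
    have h3 : T.comap (Subgroup.normalizer (T : Set N)).subtype = ⊤ := by
      rw [eq_top_iff]
      intro x _
      exact hN x.2
    rw [h3] at h2
    have h4 : Nat.card (Subgroup.normalizer (T : Set N) ⧸
        (⊤ : Subgroup (Subgroup.normalizer (T : Set N)))) = 1 := by
      have := Subgroup.index_top (G := Subgroup.normalizer (T : Set N))
      exact this
    rw [h4] at h2
    exact hp.out.one_lt.ne' (Nat.dvd_one.mp h2)
  have h5 : (Nat.card N).factorization p = n := by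
    apply le_antisymm
    · by_contra hlt
      push Not at hlt
      exact h1 ((pow_dvd_pow p hlt).trans (Nat.ordProj_dvd _ _))
    · rw [← hp.out.pow_dvd_iff_le_factorization Nat.card_pos.ne', ← hn]
      exact T.card_subgroup_dvd_card
  exact ⟨Sylow.ofCard T (by rw [hn, h5]), rfl⟩

theorem top_of_complement {G : Type*} [Group G] [Finite G] {p : ℕ} [hp : Fact p.Prime]
    (H T N : Subgroup G) [hNn : N.Normal] (hH : Subgroup.normalizer (T : Set G) = H)
    (hT : IsPGroup p T) (hTc : IsMulCommutative T) (hTnc : ¬ IsCyclic T)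
    (hC : ∀ t ∈ T, t ≠ 1 → Subgroup.centralizer ({t} : Set G) ≤ H) (hTN : T ≤ N)
    (hNH : ∀ x ∈ N, x ∈ H → x ∈ T) : H = ⊤ := by
  have hnorm : ∀ x : N, x ∈ Subgroup.normalizer (T.subgroupOf N : Set N) → (x : G) ∈ T := by
    intro x hx
    apply hNH x x.2
    rw [← hH, Subgroup.mem_normalizer_iff]
    rw [Subgroup.mem_normalizer_iff] at hx
    intro y
    by_cases hy : y ∈ N
    · exact hx ⟨y, hy⟩
    · constructor
      · intro h; exact absurd (hTN h) hy
      · intro h
        exfalso; apply hy
        have h2 := hTN h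
        have : y = (x : G)⁻¹ * (x * y * (x : G)⁻¹) * x := by group
        rw [this]
        exact N.mul_mem (N.mul_mem (N.inv_mem x.2) h2) x.2
  obtain ⟨P, hP⟩ := exists_sylow_of_normalizer (p := p) (T.subgroupOf N)
    (hT.comap_of_injective N.subtype N.subtype_injective) (fun x hx => hnorm x hx)
  have hPc : Subgroup.normalizer ((P : Subgroup N) : Set N) ≤ Subgroup.centralizer (P : Set N) := by
    intro x hx
    change x ∈ Subgroup.normalizer ((P : Subgroup N) : Set N) at hx
    rw [hP] at hx
    have h1 := hnorm x hx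
    rw [Subgroup.mem_centralizer_iff]
    intro y hy
    have h2 : (y : G) ∈ T := by
      have : y ∈ (P : Subgroup N) := hy
      rw [hP] at this; exact this
    have := hTc.is_comm.comm (⟨y, h2⟩ : T) ⟨x, h1⟩
    have h3 : (y : G) * x = x * y := congrArg Subtype.val this
    exact Subtype.ext h3
  have hcomp := MonoidHom.ker_transferSylow_isComplement' P hPc
  set K := (MonoidHom.transferSylow P hPc).ker with hK
  have hK0 : K = ⊥ := by
    let K' : Subgroup G := K.map N.subtype
    have hTK : T ≤ Subgroup.normalizer (K' : Set G) := by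
      intro t ht
      rw [Subgroup.mem_normalizer_iff]
      have key : ∀ (t : N) (y : G), y ∈ K' → (t : G) * y * (t : G)⁻¹ ∈ K' := by
        rintro t _ ⟨k, hk, rfl⟩
        exact ⟨t * k * t⁻¹, (MonoidHom.normal_ker _).conj_mem k hk t, rfl⟩
      intro y
      refine ⟨fun h => key ⟨t, hTN ht⟩ y h, fun h => ?_⟩
      have := key ⟨t, hTN ht⟩⁻¹ _ h
      simpa [mul_assoc] using this
    have hcardK' : Nat.card K' = Nat.card K :=
      Nat.card_congr (K.equivMapOfInjective _ N.subtype_injective).toEquiv.symm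
    have hcop : (Nat.card T).Coprime (Nat.card K') := by
      obtain ⟨n, hn⟩ := IsPGroup.iff_card.mp hT
      rw [hn, hcardK']
      apply Nat.Coprime.pow_left
      rw [hp.out.coprime_iff_not_dvd]
      exact MonoidHom.not_dvd_card_ker_transferSylow P hPc
    have h1 := Cfsg.Agent.H1.Partition.generation T K' hTnc hTK hcop
    have h2 : (⨆ a ∈ {a : G | a ∈ T ∧ a ≠ 1}, K' ⊓ Subgroup.centralizer {a}) = ⊥ := by
      rw [eq_bot_iff]
      apply iSup₂_le
      rintro a ⟨ha, ha1⟩
      intro x hx
      obtain ⟨hx1, hx2⟩ := Subgroup.mem_inf.mp hx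
      have h3 := hC a ha ha1 hx2
      have hKN : K' ≤ N := by
        rintro _ ⟨k, _, rfl⟩; exact k.2
      have h4 := hNH x (hKN hx1) h3
      have h5 := Subgroup.disjoint_of_coprime_natCard hcop
      rw [Subgroup.mem_bot]
      exact Subgroup.disjoint_def.mp h5 h4 hx1
    rw [h2] at h1
    rw [eq_bot_iff]
    intro x hx
    have : (x : G) ∈ K' := ⟨x, hx, rfl⟩
    rw [← h1, Subgroup.mem_bot] at this
    exact Subgroup.mem_bot.mpr (Subtype.ext this)
  have hNT : ∀ x ∈ N, x ∈ T := by
    intro x hx
    have h1 := hcomp.sup_eq_top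
    rw [hK0, bot_sup_eq, hP] at h1
    have : (⟨x, hx⟩ : N) ∈ T.subgroupOf N := h1 ▸ Subgroup.mem_top _
    exact this
  have hTeq : T = N := le_antisymm hTN hNT
  rw [← hH, hTeq]
  exact Subgroup.normalizer_eq_top N

end Cfsg.Agent.H21.Exc
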