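import Mathlib
import Cfsg.Agent.H21_Exc701a
import Cfsg.Agent.H21_Exc701b
import Cfsg.Agent.H21_Exc701e
import Cfsg.Agent.H21_ExcFinal

/-!
# `3^3 : 2^2`: local facts
-/

set_option autoImplicit false

open scoped ComplexConjugate

namespace Cfsg.Agent.H21.Exc701

open DihedralGroup Equiv Cfsg Cfsg.Agent.H3.CharIrr Cfsg.Agent.H3.CharComplete Cfsg.Agent.H3.CharInd
  Cfsg.Agent.H3.CharMult Cfsg.Agent.H3.CharPerm Cfsg.Agent.H21.Exc

/-- rotations -/
def rot (p : P) : Prop := sgn p.1 = 1 ∧ sgn p.2.1 = 1 ∧ sgn p.2.2 = 1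

instance : DecidablePred rot := fun p => by unfold rot; infer_instance

theorem rot_card : (Finset.univ.filter rot).card = 27 := by decide +kernel
theorem rot_sq : ∀ p : P, rot (p * p) := by decide +kernel
theorem rot_comm : ∀ p q : P, rot p → rot q → p * q = q * p := by decide +kernel
theorem rot_cube : ∀ p : P, rot p → p * p * p = 1 := by decide +kernel
theorem rot_sp : ∀ p : P, rot p → sp p = 1 := by decide +kernel

theorem sgn_cases : ∀ a : D, sgn a = 1 ∨ sgn a = -1 := by decide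

theorem sgn_of_pow {a : D} (h : a ^ 27 = 1) : sgn a = 1 := by
  have h1 : sgn a ^ 27 = 1 := by
    have := congrArg sgnHom h
    rw [map_pow, map_one] at this
    exact this
  rcases sgn_cases a with h2 | h2
  · exact h2
  · rw [h2] at h1; norm_num at h1

theorem rot_of_pow {p : P} (h : p ^ 27 = 1) : rot p :=
  ⟨sgn_of_pow (congrArg (fun x : P => x.1) h), sgn_of_pow (congrArg (fun x : P => x.2.1) h),
    sgn_of_pow (congrArg (fun x : P => x.2.2) h)⟩

/-- the standing hypotheses -/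
structure Hyp {G : Type*} [Group G] (H T : Subgroup G) (j : ↥H →* P) : Prop where
  inj : Function.Injective j
  rng : ∀ p, p ∈ j.range ↔ sp p = 1
  le : T ≤ H
  card : Nat.card T = 27
  norm : Subgroup.normalizer (T : Set G) = H
  cent : ∀ t ∈ T, t ≠ 1 → Subgroup.centralizer ({t} : Set G) ≤ H

variable {G : Type*} [Group G] [Finite G] {H T : Subgroup G} {j : ↥H →* P}

theorem Hyp.mem_T (hy : Hyp H T j) (x : H) : (x : G) ∈ T ↔ rot (j x) := by
  have h1 : ∀ x : H, (x : G) ∈ T → rot (j x) := by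
    intro x hx
    apply rot_of_pow
    rw [← map_pow, show x ^ 27 = 1 from ?_, map_one]
    have h2 : (⟨(x : G), hx⟩ : T) ^ 27 = 1 := by
      have := pow_card_eq_one' (x := (⟨(x : G), hx⟩ : T))
      rwa [hy.card] at this
    apply Subtype.ext
    rw [Subgroup.coe_pow]
    exact congrArg Subtype.val h2
  refine ⟨h1 x, fun hx => ?_⟩
  -- counting
  have h2 : {x : H | (x : G) ∈ T} = {x : H | rot (j x)} := by
    apply Set.eq_of_subset_of_ncard_le
    · intro x hx; exact h1 x hx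
    · have h3 : ({x : H | rot (j x)} : Set H).ncard ≤ 27 := by
        rw [← rot_card, ← Set.ncard_coe_finset]
        apply Set.ncard_le_ncard_of_injOn j
        · intro x hx; simpa using hx
        · exact hy.inj.injOn
      have h4 : ({x : H | (x : G) ∈ T} : Set H).ncard = 27 := by
        rw [← hy.card]
        have : Nat.card (T.subgroupOf H) = Nat.card T :=
          Nat.card_congr (Subgroup.subgroupOfEquivOfLe hy.le).toEquiv
        rw [← this]
        rfl
      rw [h4]; exact h3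
    · exact Set.toFinite _
  have h3 : x ∈ {x : H | rot (j x)} := hx
  rw [← h2] at h3
  exact h3

theorem Hyp.comm (hy : Hyp H T j) : ∀ a ∈ T, ∀ b ∈ T, a * b = b * a := by
  intro a ha b hb
  have h1 := rot_comm _ _ ((hy.mem_T ⟨a, hy.le ha⟩).mp ha) ((hy.mem_T ⟨b, hy.le hb⟩).mp hb)
  rw [← map_mul, ← map_mul] at h1
  exact congrArg Subtype.val (hy.inj h1)

theorem Hyp.cube (hy : Hyp H T j) : ∀ a ∈ T, a ^ 3 = 1 := by
  intro a ha
  have h1 := rot_cube _ ((hy.mem_T ⟨a, hy.le ha⟩).mp ha)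
  rw [← map_mul, ← map_mul, ← map_one j] at h1
  have := congrArg Subtype.val (hy.inj h1)
  rw [pow_succ, sq]
  exact this

theorem Hyp.mem_T_of_pow (hy : Hyp H T j) {x : G} (hx : x ∈ H) (h : x ^ 27 = 1) : x ∈ T := by
  rw [← show ((⟨x, hx⟩ : H) : G) = x from rfl, hy.mem_T]
  apply rot_of_pow
  rw [← map_pow, show (⟨x, hx⟩ : H) ^ 27 = 1 from Subtype.ext h, map_one]

theorem Hyp.ti (hy : Hyp H T j) {g t : G} (ht : t ∈ T) (ht1 : t ≠ 1) (hg : g * t * g⁻¹ ∈ T) :
    g ∈ H := by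
  have h1 : g * t * g⁻¹ ≠ 1 := by
    intro h; apply ht1
    have : t = g⁻¹ * (g * t * g⁻¹) * g := by group
    rw [this, h]; group
  rw [← hy.norm]
  apply Subgroup.mem_normalizer_fintype
  intro s hs
  have h2 : g * s * g⁻¹ ∈ H := by
    apply hy.cent _ hg h1
    rw [Subgroup.mem_centralizer_singleton_iff]
    have := hy.comm s hs t ht
    calc g * s * g⁻¹ * (g * t * g⁻¹) = g * (s * t) * g⁻¹ := by group
      _ = g * (t * s) * g⁻¹ := by rw [this]
      _ = g * t * g⁻¹ * (g * s * g⁻¹) := by group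
  apply hy.mem_T_of_pow h2
  rw [conj_pow]
  have h3 : s ^ 27 = 1 := by
    have : s ^ 27 = (s ^ 3) ^ 9 := by rw [← pow_mul]
    rw [this, hy.cube s hs, one_pow]
  rw [h3]; group

/-- the set of elements with non-trivial square -/
def SS (H : Subgroup G) : Set G := {x | x ∈ H ∧ x * x ≠ 1}

theorem Hyp.sq_mem (hy : Hyp H T j) {x : G} (hx : x ∈ H) : x * x ∈ T := by
  have : ((⟨x, hx⟩ * ⟨x, hx⟩ : H) : G) = x * x := rfl
  rw [← this, hy.mem_T, map_mul]
  exact rot_sq _

theorem Hyp.ti_SS (hy : Hyp H T j) : ∀ g : G, g ∉ H → ∀ t ∈ SS H, g * t * g⁻¹ ∈ SS H → t = 1 := by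
  intro g hg t ht ht'
  exfalso
  apply hg
  have h1 : g * (t * t) * g⁻¹ ∈ T := by
    have : g * (t * t) * g⁻¹ = (g * t * g⁻¹) * (g * t * g⁻¹) := by group
    rw [this]; exact hy.sq_mem ht'.1
  exact hy.ti (hy.sq_mem ht.1) ht.2 h1

theorem Hyp.fn_SS {f : P → ℤ} (hy : Hyp H T j) (hf : ∀ p : P, sp p = 1 → p * p = 1 → f p = 0) (x : H)
    (hx : (x : G) ∉ SS H) : fn j f x = 0 := by
  have h1 : (x : G) * x = 1 := by
    by_contra h
    exact hx ⟨x.2, h⟩
  have h2 : x * x = 1 := Subtype.ext h1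
  rw [fn, hf _ ((hy.rng _).mp ⟨x, rfl⟩) (by rw [← map_mul, h2, map_one])]
  simp

theorem Hyp.one_not_SS : (1 : G) ∉ SS H := fun h => h.2 (by simp)

variable [Fintype G] [Fintype H]

theorem Hyp.ind_reg {f : P → ℤ} (hy : Hyp H T j) (hf : ∀ p : P, sp p = 1 → p * p = 1 → f p = 0)
    {z : G} (hz : z * z = 1) : indFun H (fn j f) z = 0 := by
  rw [indFun]
  have : ∀ x : G, extendByZero H (fn j f) (x⁻¹ * z * x) = 0 := by
    intro x
    by_cases hx : x⁻¹ * z * x ∈ H
    · rw [ext_mem H _ hx]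
      apply hy.fn_SS hf
      intro h
      apply h.2
      have : x⁻¹ * z * x * (x⁻¹ * z * x) = x⁻¹ * (z * z) * x := by group
      change x⁻¹ * z * x * (x⁻¹ * z * x) = 1
      rw [this, hz]; group
    · exact ext_not_mem H _ hx
  simp [this]

theorem Hyp.ci_ind {f g : P → ℤ} (hy : Hyp H T j) (hf : ∀ p : P, sp p = 1 → p * p = 1 → f p = 0)
    (hg : ∀ p : P, sp p = 1 → p * p = 1 → g p = 0) (hg' : IsGeneralizedCharacter H (fn j g))
    (n : ℤ) (hn : Sm (fun p => f p * g p) = 108 * n) :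
    classInner (indFun H (fn j f)) (indFun H (fn j g)) = n := by
  rw [H3.CharTI.ind_inner_of_TI' H (SS H) hy.ti_SS (fn j f) (fn j g) (IsGen.isClass hg')
    (fun x hx => hy.fn_SS hf x hx) (fun x hx => hy.fn_SS hg x hx)
    (hy.fn_SS hf 1 (Hyp.one_not_SS))]
  exact ci_fn hy.inj hy.rng f g n hn

theorem Hyp.pull (hy : Hyp H T j) {f : P → ℤ} (hf : ∀ p : P, sp p = 1 → p * p = 1 → f p = 0)
    {z : G} (hz : z * z = 1) : ∀ p q : G, ∀ h : H, p * z * p⁻¹ * (q * z * q⁻¹) = (h : G) →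
      fn j f h ≠ 0 → p * z * p⁻¹ ∈ H ∧ q * z * q⁻¹ ∈ H := by
  intro p q h hpq hne
  have h1 : (h : G) ∈ SS H := by
    by_contra hc
    exact hne (hy.fn_SS hf h hc)
  set x := p * z * p⁻¹ with hx
  set y := q * z * q⁻¹ with hy'
  have hxx : x * x = 1 := by
    rw [hx]
    have : p * z * p⁻¹ * (p * z * p⁻¹) = p * (z * z) * p⁻¹ := by group
    rw [this, hz]; group
  have hyy : y * y = 1 := by
    rw [hy']
    have : q * z * q⁻¹ * (q * z * q⁻¹) = q * (z * z) * q⁻¹ := by group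
    rw [this, hz]; group
  have hxi : x⁻¹ = x := inv_eq_of_mul_eq_one_left hxx
  have hyi : y⁻¹ = y := inv_eq_of_mul_eq_one_left hyy
  have h2 : x * ((h : G) * h) * x⁻¹ = ((h : G) * h)⁻¹ := by
    rw [← hpq]
    calc x * (x * y * (x * y)) * x⁻¹ = (x * x) * y * x * y * x⁻¹ := by group
      _ = y * x * y * x := by rw [hxx, hxi]; group
      _ = (x * y * (x * y))⁻¹ := by rw [mul_inv_rev, mul_inv_rev, hxi, hyi]; group
  have hxH : x ∈ H := by
    apply hy.ti (hy.sq_mem h.2) h1.2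
    rw [h2]
    exact T.inv_mem (hy.sq_mem h.2)
  refine ⟨hxH, ?_⟩
  have : y = x⁻¹ * h := by rw [← hpq]; group
  rw [this]
  exact H.mul_mem (H.inv_mem hxH) h.2

end Cfsg.Agent.H21.Exc701
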