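import Mathlib
import Cfsg.Agent.H21_Exc701f

/-!
# `3^3 : 2^2`: the structure constant sums
-/

set_option autoImplicit false

open scoped ComplexConjugate

namespace Cfsg.Agent.H21.Exc701

open DihedralGroup Equiv Cfsg Cfsg.Agent.H3.CharIrr Cfsg.Agent.H3.CharComplete Cfsg.Agent.H3.CharInd
  Cfsg.Agent.H3.CharMult Cfsg.Agent.H3.CharPerm Cfsg.Agent.H21.Exc

variable {G : Type*} [Group G] [Finite G] {H T : Subgroup G} {j : ↥H →* P}

/-- the involutions in `H` -/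
noncomputable def Hyp.u (hy : Hyp H T j) (k : Fin 3 × ZMod 3 × ZMod 3) : H :=
  ((hy.rng (iv k)).mpr (iv_sp k)).choose

theorem Hyp.j_u (hy : Hyp H T j) (k : Fin 3 × ZMod 3 × ZMod 3) : j (hy.u k) = iv k :=
  ((hy.rng (iv k)).mpr (iv_sp k)).choose_spec

theorem Hyp.u_inj (hy : Hyp H T j) : Function.Injective hy.u := by
  intro k l h
  apply iv_inj
  rw [← hy.j_u, ← hy.j_u, h]

theorem Hyp.u_sq (hy : Hyp H T j) (k : Fin 3 × ZMod 3 × ZMod 3) : (hy.u k : G) * hy.u k = 1 := by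
  have : hy.u k * hy.u k = 1 := by
    apply hy.inj
    rw [map_mul, hy.j_u, iv_sq, map_one]
  exact congrArg Subtype.val this

theorem Hyp.u_conj (hy : Hyp H T j) (k : Fin 3 × ZMod 3 × ZMod 3) :
    IsConj (hy.u (k.1, 0, 0) : G) (hy.u k) := by
  obtain ⟨m, hm, hm'⟩ := iv_conj k
  obtain ⟨x, hx⟩ := (hy.rng m).mpr hm
  rw [isConj_iff]
  refine ⟨x, ?_⟩
  have : x * hy.u (k.1, 0, 0) * x⁻¹ = hy.u k := by
    apply hy.inj
    rw [map_mul, map_mul, map_inv, hy.j_u, hy.j_u, hx, hm']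
  exact congrArg Subtype.val this

theorem Hyp.exists_u (hy : Hyp H T j) (x : H) (hx : (x : G) * x = 1) (hx1 : (x : G) ≠ 1) :
    ∃ k, x = hy.u k := by
  obtain ⟨k, hk⟩ := eq_iv (j x) ((hy.rng _).mp ⟨x, rfl⟩)
    (by rw [← map_mul, show x * x = 1 from Subtype.ext hx, map_one])
    (by
      intro h
      rw [← map_one j] at h
      exact hx1 (congrArg Subtype.val (hy.inj h)))
  exact ⟨k, hy.inj (by rw [hk, hy.j_u])⟩

variable [Fintype G] [Fintype H]

/-- indicator of fusion -/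
noncomputable def Hyp.e (hy : Hyp H T j) (z : G) (i : Fin 3) : ℂ :=
  open Classical in if IsConj z (hy.u (i, 0, 0) : G) then 1 else 0

theorem Hyp.sum_E (hy : Hyp H T j) {z : G} (hz : z * z = 1) (hz1 : z ≠ 1)
    [DecidablePred (IsConj z)] (φ : H → ℂ) :
    ∑ x : H, (if IsConj z (x : G) then (1 : ℂ) else 0) * φ x =
      ∑ i : Fin 3, ∑ a : ZMod 3 × ZMod 3, hy.e z i * φ (hy.u (i, a)) := by
  classical
  rw [← Fintype.sum_prod_type (f := fun k : Fin 3 × ZMod 3 × ZMod 3 => hy.e z k.1 * φ (hy.u k))]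
  have h1 : ∑ x : H, (if IsConj z (x : G) then (1 : ℂ) else 0) * φ x =
      ∑ x ∈ Finset.univ.image hy.u, (if IsConj z (x : G) then (1 : ℂ) else 0) * φ x := by
    symm
    apply Finset.sum_subset (Finset.subset_univ _)
    intro x _ hx
    rw [if_neg, zero_mul]
    intro hc
    apply hx
    obtain ⟨c, hc⟩ := isConj_iff.mp hc
    obtain ⟨k, hk⟩ := hy.exists_u x (by
      rw [← hc]
      have : c * z * c⁻¹ * (c * z * c⁻¹) = c * (z * z) * c⁻¹ := by group
      rw [this, hz]; group) (by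
      intro h
      apply hz1
      rw [h] at hc
      have : z = c⁻¹ * (c * z * c⁻¹) * c := by group
      rw [this, hc]; group)
    rw [hk]
    exact Finset.mem_image_of_mem _ (Finset.mem_univ k)
  rw [h1, Finset.sum_image (fun a _ b _ h => hy.u_inj h)]
  refine Finset.sum_congr rfl fun k _ => ?_
  congr 1
  have h2 : IsConj z (hy.u k : G) ↔ IsConj z (hy.u (k.1, 0, 0) : G) :=
    ⟨fun h => h.trans (hy.u_conj k).symm, fun h => h.trans (hy.u_conj k)⟩
  by_cases hk : IsConj z (hy.u (k.1, 0, 0) : G)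
  · rw [if_pos (h2.mpr hk), Hyp.e, if_pos hk]
  · rw [if_neg (fun h => hk (h2.mp h)), Hyp.e, if_neg hk]

theorem Hyp.sum_EE (hy : Hyp H T j) {z : G} (hz : z * z = 1) (hz1 : z ≠ 1)
    [DecidablePred (IsConj z)] (f : P → ℤ) (q : Fin 3 → Fin 3 → ℤ)
    (hq : ∀ i k : Fin 3, ∑ a : ZMod 3 × ZMod 3, ∑ b : ZMod 3 × ZMod 3,
      f (iv (i, a) * iv (k, b)) = q i k) :
    ∑ x : H, ∑ y : H, (if IsConj z (x : G) then (1 : ℂ) else 0) *
        (if IsConj z (y : G) then 1 else 0) * fn j f (x * y) =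
      ∑ i : Fin 3, ∑ k : Fin 3, hy.e z i * hy.e z k * (q i k : ℂ) := by
  have h1 : ∀ x : H, ∑ y : H, (if IsConj z (x : G) then (1 : ℂ) else 0) *
        (if IsConj z (y : G) then 1 else 0) * fn j f (x * y) =
      (if IsConj z (x : G) then (1 : ℂ) else 0) *
        ∑ i : Fin 3, ∑ a : ZMod 3 × ZMod 3, hy.e z i * fn j f (x * hy.u (i, a)) := by
    intro x
    rw [← hy.sum_E hz hz1 (fun y => fn j f (x * y)), Finset.mul_sum]
    exact Finset.sum_congr rfl fun y _ => by ring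
  rw [Finset.sum_congr rfl fun x _ => h1 x, hy.sum_E hz hz1]
  refine Finset.sum_congr rfl fun i _ => ?_
  have h2 : ∀ k : Fin 3, hy.e z i * hy.e z k * (q i k : ℂ) =
      ∑ a : ZMod 3 × ZMod 3, ∑ b : ZMod 3 × ZMod 3,
        hy.e z i * (hy.e z k * fn j f (hy.u (i, a) * hy.u (k, b))) := by
    intro k
    rw [← hq i k]
    push_cast
    rw [Finset.mul_sum]
    refine Finset.sum_congr rfl fun a _ => ?_
    rw [Finset.mul_sum]
    refine Finset.sum_congr rfl fun b _ => ?_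
    rw [fn, map_mul, hy.j_u, hy.j_u]
    ring
  rw [Finset.sum_congr rfl fun k _ => h2 k, Finset.sum_comm]
  refine Finset.sum_congr rfl fun a _ => ?_
  rw [Finset.mul_sum]
  refine Finset.sum_congr rfl fun k _ => ?_
  rw [Finset.mul_sum]

variable [Fintype (IrrCharacter G)]

/-- the constant -/
noncomputable def cc (H : Subgroup G) (z : G) : ℂ :=
  162 * (((Nat.card H : ℂ) * (Nat.card G : ℂ))⁻¹ *
    ((Nat.card (Subgroup.centralizer ({z} : Set G)) : ℂ) *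
      (Nat.card (Subgroup.centralizer ({z} : Set G)) : ℂ)))

theorem cc_ne (H : Subgroup G) (z : G) : cc H z ≠ 0 := by
  have h1 : (Nat.card G : ℂ) ≠ 0 := card_cast_ne_zero
  have h2 : (Nat.card H : ℂ) ≠ 0 := cardH_ne_zero H
  have h3 : (Nat.card (Subgroup.centralizer ({z} : Set G)) : ℂ) ≠ 0 := cardH_ne_zero _
  unfold cc
  exact mul_ne_zero (by norm_num) (mul_ne_zero (inv_ne_zero (mul_ne_zero h2 h1)) (mul_ne_zero h3 h3))

theorem Hyp.tt_eq (hy : Hyp H T j) {z : G} (hz : z * z = 1) (hz1 : z ≠ 1) (f : P → ℤ)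
    (hf : ∀ p : P, sp p = 1 → p * p = 1 → f p = 0)
    (hf' : IsGeneralizedCharacter H (fn j f)) (q : Fin 3 → Fin 3 → ℤ)
    (hq : ∀ i k : Fin 3, ∑ a : ZMod 3 × ZMod 3, ∑ b : ZMod 3 × ZMod 3,
      f (iv (i, a) * iv (k, b)) = q i k) :
    tt z z (coef (indFun H (fn j f))) = cc H z / 162 *
      ∑ i : Fin 3, ∑ k : Fin 3, hy.e z i * hy.e z k * (q i k : ℂ) := by
  classical
  rw [tt_ind H hf', count_eq H (fn j f) z z (hy.pull hf hz), hy.sum_EE hz hz1 f q hq, cc]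
  ring

theorem Hyp.e_cases (hy : Hyp H T j) (z : G) (i : Fin 3) : hy.e z i = 0 ∨ hy.e z i = 1 := by
  classical
  rw [Hyp.e]; split_ifs <;> simp

theorem Hyp.tt_A (hy : Hyp H T j) {z : G} (hz : z * z = 1) (hz1 : z ≠ 1) (n : Fin 3) :
    tt z z (coef (indFun H (fn j (Af n)))) = -(cc H z * (hy.e z (n + 1) + hy.e z (n + 2)) ^ 2) := by
  rw [hy.tt_eq hz hz1 (Af n) (fun p h1 h2 => A_reg p h1 h2 n) (gen_A j n) _ (Q_A n)]
  simp only [Fin.sum_univ_three]
  fin_cases n <;> simp <;> ring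

theorem Hyp.tt_B (hy : Hyp H T j) {z : G} (hz : z * z = 1) (hz1 : z ≠ 1) (n : Fin 3) :
    tt z z (coef (indFun H (fn j (Bf n)))) = -(cc H z * (hy.e z (n + 1) - hy.e z (n + 2)) ^ 2) := by
  rw [hy.tt_eq hz hz1 (Bf n) (fun p h1 h2 => B_reg p h1 h2 n) (gen_B j n) _ (Q_B n)]
  simp only [Fin.sum_univ_three]
  fin_cases n <;> simp <;> ring

theorem Hyp.tt_G (hy : Hyp H T j) {z : G} (hz : z * z = 1) (hz1 : z ≠ 1) :
    tt z z (coef (indFun H (fn j Gf))) = -(2 * cc H z * (hy.e z 0 + hy.e z 1 + hy.e z 2)) := by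
  rw [hy.tt_eq hz hz1 Gf G_reg (gen_G j) _ Q_G]
  simp only [Fin.sum_univ_three]
  rcases hy.e_cases z 0 with h0 | h0 <;> rcases hy.e_cases z 1 with h1 | h1 <;>
    rcases hy.e_cases z 2 with h2 | h2 <;> rw [h0, h1, h2] <;> simp <;> ring

end Cfsg.Agent.H21.Exc701
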