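import Mathlib
import Cfsg.Agent.H21_Exc701g

/-!
# `3^3 : 2^2`: the exceptional characters are linear
-/

set_option autoImplicit false

open scoped ComplexConjugate

namespace Cfsg.Agent.H21.Exc

open Cfsg Cfsg.Agent.H3.CharIrr Cfsg.Agent.H3.CharInd

variable {G : Type*} [Group G] [Fintype G] [Fintype (IrrCharacter G)]

/-- integral degree functional -/
noncomputable def degZ (G : Type*) [Group G] [Fintype G] [Fintype (IrrCharacter G)] :
    (IrrCharacter G → ℤ) →+ ℤ where
  toFun v := ∑ χ, v χ * ((IsIrr.one_eq_nat χ.2).choose : ℤ)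
  map_zero' := by simp
  map_add' a b := by simp [add_mul, Finset.sum_add_distrib]

theorem degZ_cast (v : IrrCharacter G → ℤ) : ((degZ G v : ℤ) : ℂ) = val 1 v := by
  rw [val, ev_apply, degZ]
  change ((∑ χ, v χ * ((IsIrr.one_eq_nat χ.2).choose : ℤ) : ℤ) : ℂ) = _
  push_cast
  refine Finset.sum_congr rfl fun χ _ => ?_
  exact congrArg (fun t => (v χ : ℂ) * t) (IsIrr.one_eq_nat χ.2).choose_spec.2.symm

/-- the trivial vector -/
noncomputable def oo (G : Type*) [Group G] [Fintype G] [DecidableEq (IrrCharacter G)] :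
    IrrCharacter G → ℤ := Pi.single (triv G) 1

variable [DecidableEq (IrrCharacter G)]

theorem oo_oo : oo G ⬝ᵥ oo G = 1 := by simp [oo]

theorem val_oo (x : G) : val x (oo G) = 1 := by
  rw [oo, val, ev_single]; rfl

theorem coef_oo {f : G → ℂ} (hf : IsGeneralizedCharacter G f) {n : ℤ}
    (h : classInner f (fun _ => 1) = n) : coef f ⬝ᵥ oo G = n := by
  have h1 : (coef f ⬝ᵥ oo G) = coef f (triv G) := by simp [oo]
  rw [h1]
  have h2 := coef_spec hf (triv G)
  rw [show ((triv G : IrrCharacter G) : G → ℂ) = fun _ => 1 from rfl, h] at h2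
  exact_mod_cast h2.symm

theorem dot_eq {f g : G → ℂ} (hf : IsGeneralizedCharacter G f)
    (hg : IsGeneralizedCharacter G g) {n : ℤ} (h : classInner f g = n) :
    coef f ⬝ᵥ coef g = n := by
  have := dot_coef hf hg
  rw [h] at this
  exact_mod_cast this

end Cfsg.Agent.H21.Exc

namespace Cfsg.Agent.H21.Exc701

open DihedralGroup Equiv Cfsg Cfsg.Agent.H3.CharIrr Cfsg.Agent.H3.CharComplete Cfsg.Agent.H3.CharInd
  Cfsg.Agent.H3.CharMult Cfsg.Agent.H3.CharPerm Cfsg.Agent.H21.Exc

variable {G : Type*} [Group G] [Finite G] {H T : Subgroup G} {j : ↥H →* P}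
variable [Fintype G] [Fintype H]

theorem iv_ne : ∀ k, iv k ≠ 1 := by decide +kernel

theorem Hyp.exists_Y (hy : Hyp H T j) : ∃ Y : Fin 3 → (G →* ℂˣ),
    ∀ i n, classInner (fun h : H => ((Y i h : ℂˣ) : ℂ)) (fn j (Af n)) = if i = n then -1 else 0 := by
  classical
  haveI : Fintype (IrrCharacter G) := Fintype.ofFinite _
  -- vectors
  have gA : ∀ i, IsGeneralizedCharacter G (indFun H (fn j (Af i))) := fun i => IsGen.ind (gen_A j i)
  have gB : ∀ i, IsGeneralizedCharacter G (indFun H (fn j (Bf i))) := fun i => IsGen.ind (gen_B j i)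
  have gG : IsGeneralizedCharacter G (indFun H (fn j Gf)) := IsGen.ind (gen_G j)
  have gD : IsGeneralizedCharacter G (indFun H (fn j Df)) := IsGen.ind (gen_D j)
  have rA : ∀ i, ∀ p : P, sp p = 1 → p * p = 1 → Af i p = 0 := fun i p h1 h2 => A_reg p h1 h2 i
  have rB : ∀ i, ∀ p : P, sp p = 1 → p * p = 1 → Bf i p = 0 := fun i p h1 h2 => B_reg p h1 h2 i
  have one_mul_one : (1 : G) * 1 = 1 := one_mul 1
  have h1cl : IsClassFunction G (fun _ => (1 : ℂ)) := fun _ _ => rfl
  have ci1 : ∀ f : P → ℤ, ∀ n : ℤ, Sm (fun p => f p * 1) = 108 * n →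
      classInner (indFun H (fn j f)) (fun _ : G => (1 : ℂ)) = n := by
    intro f n hn
    rw [frobenius H _ _ h1cl]
    exact ci_fn_one hy.inj hy.rng f n hn
  have v0 : ∀ f : P → ℤ, (∀ p : P, sp p = 1 → p * p = 1 → f p = 0) →
      IsGeneralizedCharacter G (indFun H (fn j f)) → ∀ z : G, z * z = 1 →
      val z (coef (indFun H (fn j f))) = 0 := by
    intro f hf hg z hz
    rw [val_coef hg, hy.ind_reg hf hz]
  have d0 : ∀ f : P → ℤ, (∀ p : P, sp p = 1 → p * p = 1 → f p = 0) →
      IsGeneralizedCharacter G (indFun H (fn j f)) →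
      degZ G (coef (indFun H (fn j f))) = 0 := by
    intro f hf hg
    have h1 := degZ_cast (coef (indFun H (fn j f)))
    rw [v0 f hf hg 1 one_mul_one] at h1
    exact_mod_cast h1
  obtain ⟨X, Y, Z, F, hX, hY, hZ, hF, hA, hB, hG, hYo, hYY, hYX⟩ := config (degZ G)
    (by
      intro u hu h
      apply val_one_ne hu
      rw [← degZ_cast, h]; simp)
    (oo G) oo_oo
    (by
      have h1 := degZ_cast (oo G)
      rw [val_oo] at h1
      exact_mod_cast h1)
    (fun i => coef (indFun H (fn j (Af i)))) (fun i => coef (indFun H (fn j (Bf i))))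
    (coef (indFun H (fn j Gf))) (coef (indFun H (fn j Df)))
    (fun i k => by
      apply dot_eq (gA i) (gA k)
      apply hy.ci_ind (rA i) (rA k) (gen_A j k)
      rw [S_AA]; split_ifs <;> norm_num)
    (fun i => by
      apply coef_oo (gA i)
      apply ci1; rw [S_A]; norm_num)
    (fun i => by
      apply dot_eq (gB i) (gB i)
      apply hy.ci_ind (rB i) (rB i) (gen_B j i)
      rw [S_BB]; norm_num)
    (fun i => by
      apply coef_oo (gB i)
      apply ci1; rw [S_B]; norm_num)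
    (fun i k => by
      apply dot_eq (gB i) (gA k)
      apply hy.ci_ind (rB i) (rA k) (gen_A j k)
      rw [S_BA]; split_ifs <;> norm_num)
    (by
      apply dot_eq gG gG
      apply hy.ci_ind G_reg G_reg (gen_G j)
      rw [S_GG]; norm_num)
    (by
      apply coef_oo gG
      apply ci1; rw [S_G]; norm_num)
    (fun i => by
      apply dot_eq gG (gA i)
      apply hy.ci_ind G_reg (rA i) (gen_A j i)
      rw [S_GA]; norm_num)
    (fun i => by
      apply dot_eq (gB i) gG
      apply hy.ci_ind (rB i) G_reg (gen_G j)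
      rw [S_BG]; norm_num)
    (by
      apply dot_eq gD gD
      apply hy.ci_ind D_reg D_reg (gen_D j)
      rw [S_DD]; norm_num)
    (by
      apply coef_oo gD
      apply ci1; rw [S_D]; norm_num)
    (fun i => by
      apply dot_eq (gA i) gD
      apply hy.ci_ind (rA i) D_reg (gen_D j)
      rw [S_AD]; norm_num)
    (fun i => by
      apply dot_eq (gB i) gD
      apply hy.ci_ind (rB i) D_reg (gen_D j)
      rw [S_BD]; norm_num)
    (by
      apply dot_eq gG gD
      apply hy.ci_ind G_reg D_reg (gen_D j)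
      rw [S_GD]; norm_num)
    (fun i => d0 (Af i) (rA i) (gA i))
    (d0 Df D_reg gD)
  -- values at elements of order at most two
  have eX : ∀ z : G, z * z = 1 → ∀ i, val z (X i) = 1 + val z (Y i) := by
    intro z hz i
    have h1 := v0 (Af i) (rA i) (gA i) z hz
    have h2 := hA i
    rw [h2, map_sub, map_sub, val_oo] at h1
    linear_combination h1
  have eZ : ∀ z : G, z * z = 1 → ∀ i, val z (Z i) = val z (Y (i + 1)) + val z (Y (i + 2)) := by
    intro z hz i
    have h1 := v0 (Bf i) (rB i) (gB i) z hz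
    have h2 := hB i
    rw [h2, map_sub, map_sub] at h1
    linear_combination h1
  have eF : ∀ z : G, z * z = 1 → val z F = 1 + val z (Y 0) + val z (Y 1) + val z (Y 2) := by
    intro z hz
    have h1 := v0 Gf G_reg gG z hz
    rw [hG, map_sub, map_sub, map_sub, map_sub, val_oo] at h1
    linear_combination h1
  -- the degree of `Y i`
  have hdeg : ∀ i, val (1 : G) (Y i) = 1 := by
    intro i
    set z : G := (hy.u (i, 0, 0) : G) with hzdef
    have hz : z * z = 1 := hy.u_sq (i, 0, 0)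
    have hz1 : z ≠ 1 := by
      intro h
      have h1 : hy.u (i, 0, 0) = 1 := Subtype.ext h
      have h2 := hy.j_u (i, 0, 0)
      rw [h1, map_one] at h2
      exact iv_ne _ h2.symm
    have hei : hy.e z i = 1 := by
      rw [Hyp.e, if_pos]; exact IsConj.refl z
    have hc := cc_ne H z
    have TA : ∀ n, (1 + val z (Y n)) ^ 2 / (1 + val 1 (Y n)) - 1 -
        (val z (Y n)) ^ 2 / val 1 (Y n) =
        -(cc H z * (hy.e z (n + 1) + hy.e z (n + 2)) ^ 2) := by
      intro n
      rw [← hy.tt_A hz hz1 n]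
      have h2 := hA n
      rw [h2, map_sub, map_sub, tt_unit (hX n), tt_unit (hY n), tt_unit oo_oo, eX z hz, eX 1 one_mul_one,
        val_oo, val_oo]
      ring
    have TB : ∀ n, (val z (Y (n + 1)) + val z (Y (n + 2))) ^ 2 /
        (val 1 (Y (n + 1)) + val 1 (Y (n + 2))) -
        (val z (Y (n + 1))) ^ 2 / val 1 (Y (n + 1)) - (val z (Y (n + 2))) ^ 2 / val 1 (Y (n + 2)) =
        -(cc H z * (hy.e z (n + 1) - hy.e z (n + 2)) ^ 2) := by
      intro n
      rw [← hy.tt_B hz hz1 n]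
      have h2 := hB n
      rw [h2, map_sub, map_sub, tt_unit (hZ n), tt_unit (hY _), tt_unit (hY _), eZ z hz,
        eZ 1 one_mul_one]
      ring
    have TG : (1 + val z (Y 0) + val z (Y 1) + val z (Y 2)) ^ 2 /
        (1 + val 1 (Y 0) + val 1 (Y 1) + val 1 (Y 2)) - 1 - (val z (Y 0)) ^ 2 / val 1 (Y 0) -
        (val z (Y 1)) ^ 2 / val 1 (Y 1) - (val z (Y 2)) ^ 2 / val 1 (Y 2) =
        -(2 * cc H z * (hy.e z 0 + hy.e z 1 + hy.e z 2)) := by
      rw [← hy.tt_G hz hz1]
      rw [hG, map_sub, map_sub, map_sub, map_sub, tt_unit hF, tt_unit (hY _), tt_unit (hY _),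
        tt_unit (hY _), tt_unit oo_oo, eF z hz, eF 1 one_mul_one, val_oo, val_oo]
      ring
    have n0 : ∀ n, val (1 : G) (Y n) ≠ 0 := fun n => val_one_ne (hY n)
    have n1 : ∀ n, 1 + val (1 : G) (Y n) ≠ 0 := fun n => by
      rw [← eX 1 one_mul_one]; exact val_one_ne (hX n)
    have n2 : ∀ n, val (1 : G) (Y (n + 1)) + val (1 : G) (Y (n + 2)) ≠ 0 := fun n => by
      rw [← eZ 1 one_mul_one]; exact val_one_ne (hZ n)
    have n3 : 1 + val (1 : G) (Y 0) + val (1 : G) (Y 1) + val (1 : G) (Y 2) ≠ 0 := by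
      rw [← eF 1 one_mul_one]; exact val_one_ne hF
    have A0 := TA 0
    have A1 := TA 1
    have A2 := TA 2
    have B0 := TB 0
    have B1 := TB 1
    have B2 := TB 2
    have m0 := n2 0
    have m1 := n2 1
    have m2 := n2 2
    have f1 : (0 : Fin 3) + 1 = 1 := rfl
    have f2 : (0 : Fin 3) + 2 = 2 := rfl
    have f3 : (1 : Fin 3) + 1 = 2 := rfl
    have f4 : (1 : Fin 3) + 2 = 0 := rfl
    have f5 : (2 : Fin 3) + 1 = 0 := rfl
    have f6 : (2 : Fin 3) + 2 = 1 := rfl
    rw [f1, f2] at A0 B0 m0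
    rw [f3, f4] at A1 B1 m1
    rw [f5, f6] at A2 B2 m2
    clear_value z
    fin_cases i
    · change hy.e z 0 = 1 at hei
      change val (1 : G) (Y 0) = 1
      rw [hei] at A1 A2 B1 B2 TG
      have m1' : val (1 : G) (Y 0) + val (1 : G) (Y 2) ≠ 0 := by rw [add_comm]; exact m1
      have B1' : (val z (Y 0) + val z (Y 2)) ^ 2 / (val 1 (Y 0) + val 1 (Y 2)) -
          (val z (Y 0)) ^ 2 / val 1 (Y 0) - (val z (Y 2)) ^ 2 / val 1 (Y 2) =
          -(cc H z * (1 - hy.e z 2) ^ 2) := by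
        rw [add_comm (val 1 (Y 0)), add_comm (val z (Y 0))]; linear_combination B1
      exact alg (n0 0) (n0 1) (n0 2) (n1 0) (n1 1) (n1 2) m0 m1' m2 n3 hc
        (hy.e_cases z 1) (hy.e_cases z 2) A0 (by rw [A1]; ring) A2 B0 B1' B2 TG
    · change hy.e z 1 = 1 at hei
      change val (1 : G) (Y 1) = 1
      rw [hei] at A0 A2 B0 B2 TG
      have m2' : val (1 : G) (Y 1) + val (1 : G) (Y 0) ≠ 0 := by rw [add_comm]; exact m2
      have n3' : 1 + val (1 : G) (Y 1) + val (1 : G) (Y 2) + val (1 : G) (Y 0) ≠ 0 := by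
        intro h; apply n3; linear_combination h
      have B2' : (val z (Y 1) + val z (Y 0)) ^ 2 / (val 1 (Y 1) + val 1 (Y 0)) -
          (val z (Y 1)) ^ 2 / val 1 (Y 1) - (val z (Y 0)) ^ 2 / val 1 (Y 0) =
          -(cc H z * (1 - hy.e z 0) ^ 2) := by
        rw [add_comm (val 1 (Y 1)), add_comm (val z (Y 1))]; linear_combination B2
      have TG' : (1 + val z (Y 1) + val z (Y 2) + val z (Y 0)) ^ 2 /
          (1 + val 1 (Y 1) + val 1 (Y 2) + val 1 (Y 0)) - 1 - (val z (Y 1)) ^ 2 / val 1 (Y 1) -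
          (val z (Y 2)) ^ 2 / val 1 (Y 2) - (val z (Y 0)) ^ 2 / val 1 (Y 0) =
          -(2 * cc H z * (1 + hy.e z 2 + hy.e z 0)) := by
        rw [show 1 + val z (Y 1) + val z (Y 2) + val z (Y 0) =
            1 + val z (Y 0) + val z (Y 1) + val z (Y 2) by ring,
            show 1 + val (1 : G) (Y 1) + val 1 (Y 2) + val 1 (Y 0) =
            1 + val 1 (Y 0) + val 1 (Y 1) + val 1 (Y 2) by ring]
        linear_combination TG
      exact alg (n0 1) (n0 2) (n0 0) (n1 1) (n1 2) (n1 0) m1 m2' m0 n3' hc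
        (hy.e_cases z 2) (hy.e_cases z 0) A1 (by rw [A2]; ring) A0 B1 B2' B0 TG'
    · change hy.e z 2 = 1 at hei
      change val (1 : G) (Y 2) = 1
      rw [hei] at A0 A1 B0 B1 TG
      have m0' : val (1 : G) (Y 2) + val (1 : G) (Y 1) ≠ 0 := by rw [add_comm]; exact m0
      have n3' : 1 + val (1 : G) (Y 2) + val (1 : G) (Y 0) + val (1 : G) (Y 1) ≠ 0 := by
        intro h; apply n3; linear_combination h
      have B0' : (val z (Y 2) + val z (Y 1)) ^ 2 / (val 1 (Y 2) + val 1 (Y 1)) -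
          (val z (Y 2)) ^ 2 / val 1 (Y 2) - (val z (Y 1)) ^ 2 / val 1 (Y 1) =
          -(cc H z * (1 - hy.e z 1) ^ 2) := by
        rw [add_comm (val 1 (Y 2)), add_comm (val z (Y 2))]; linear_combination B0
      have TG' : (1 + val z (Y 2) + val z (Y 0) + val z (Y 1)) ^ 2 /
          (1 + val 1 (Y 2) + val 1 (Y 0) + val 1 (Y 1)) - 1 - (val z (Y 2)) ^ 2 / val 1 (Y 2) -
          (val z (Y 0)) ^ 2 / val 1 (Y 0) - (val z (Y 1)) ^ 2 / val 1 (Y 1) =
          -(2 * cc H z * (1 + hy.e z 0 + hy.e z 1)) := by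
        rw [show 1 + val z (Y 2) + val z (Y 0) + val z (Y 1) =
            1 + val z (Y 0) + val z (Y 1) + val z (Y 2) by ring,
            show 1 + val (1 : G) (Y 2) + val 1 (Y 0) + val 1 (Y 1) =
            1 + val 1 (Y 0) + val 1 (Y 1) + val 1 (Y 2) by ring]
        linear_combination TG
      exact alg (n0 2) (n0 0) (n0 1) (n1 2) (n1 0) (n1 1) m2 m0' m1 n3' hc
        (hy.e_cases z 0) (hy.e_cases z 1) A2 (by rw [A0]; ring) A1 B2 B0' B1 TG'
  choose f hf using fun i => unit_linear (hY i) (hdeg i)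
  refine ⟨f, fun i n => ?_⟩
  have hcl : IsClassFunction G (fun x => val x (Y i)) := by
    intro x y
    simp only [hf, map_mul, map_inv]
    rw [mul_right_comm, mul_inv_cancel, one_mul]
  have h1 : (fun h : H => ((f i h : ℂˣ) : ℂ)) = fun h : H => (fun x => val x (Y i)) (h : G) := by
    ext h; exact (hf i h).symm
  rw [h1, ← frobenius' H _ _ hcl, val_ci _ (gA n)]
  have h2 := hA n
  rw [h2, dotProduct_sub, dotProduct_sub, hYX, hYo]
  split_ifs with h
  · subst h; rw [hY]; norm_num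
  · rw [hYY i n h]; norm_num

end Cfsg.Agent.H21.Exc701
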