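import Mathlib
import Cfsg.Agent.H21_Exc701h

/-!
# `3^3 : 2^2`: conclusion
-/

set_option autoImplicit false

open scoped ComplexConjugate

namespace Cfsg.Agent.H21.Exc701

open DihedralGroup Equiv Cfsg Cfsg.Agent.H3.CharIrr Cfsg.Agent.H3.CharComplete Cfsg.Agent.H3.CharInd
  Cfsg.Agent.H3.CharMult Cfsg.Agent.H3.CharPerm Cfsg.Agent.H21.Exc

theorem comm0 : ∀ a : ZMod 3, ((r a, 1, 1) : P) = (r (2 * a), 1, 1) * (sr 0, sr 0, 1) *
    (r (2 * a), 1, 1)⁻¹ * (sr 0, sr 0, 1)⁻¹ := by decide +kernel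
theorem comm1 : ∀ a : ZMod 3, ((1, r a, 1) : P) = (1, r (2 * a), 1) * (sr 0, sr 0, 1) *
    (1, r (2 * a), 1)⁻¹ * (sr 0, sr 0, 1)⁻¹ := by decide +kernel
theorem comm2 : ∀ a : ZMod 3, ((1, 1, r a) : P) = (1, 1, r (2 * a)) * (sr 0, 1, sr 0) *
    (1, 1, r (2 * a))⁻¹ * (sr 0, 1, sr 0)⁻¹ := by decide +kernel

theorem rot_dec : ∀ p : P, rot p → ∃ a b c : ZMod 3, p = (r a, 1, 1) * (1, r b, 1) * (1, 1, r c) := by
  decide +kernel

theorem dec_n : ∀ p : P, sp p = 1 → ¬ rot p → ∃ n : Fin 3, sgn (co n p) = 1 := by decide +kernel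
theorem dec_A : ∀ n : Fin 3, ∀ p : P, Af n p ≠ 0 → sgn (co n p) = 1 := by
  decide +kernel
theorem dec_r : ∀ n : Fin 3, ∀ q : P, sp q = 1 → ¬ rot q → sgn (co n q) = 1 → ∀ p : P, sp p = 1 →
    sgn (co n p) = 1 → ¬ rot p → rot (p * q⁻¹) := by
  decide +kernel

variable {G : Type*} [Group G] [Finite G] {H T : Subgroup G} {j : ↥H →* P}

theorem Hyp.ker_comm (hy : Hyp H T j) (μ : H →* ℂˣ) {x v : P} (hx : sp x = 1) (hv : sp v = 1) (t : H)
    (ht : j t = x * v * x⁻¹ * v⁻¹) : μ t = 1 := by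
  obtain ⟨X, hX⟩ := (hy.rng x).mpr hx
  obtain ⟨V, hV⟩ := (hy.rng v).mpr hv
  have : t = X * V * X⁻¹ * V⁻¹ := by
    apply hy.inj
    rw [ht, map_mul, map_mul, map_mul, map_inv, map_inv, hX, hV]
  rw [this, map_mul, map_mul, map_mul, map_inv, map_inv, mul_comm (μ X)]
  group

theorem Hyp.ker_rot (hy : Hyp H T j) (μ : H →* ℂˣ) (t : H) (ht : rot (j t)) : μ t = 1 := by
  obtain ⟨a, b, c, h⟩ := rot_dec _ ht
  obtain ⟨t0, h0⟩ := (hy.rng (r a, 1, 1)).mpr rfl
  obtain ⟨t1, h1⟩ := (hy.rng (1, r b, 1)).mpr rfl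
  obtain ⟨t2, h2⟩ := (hy.rng (1, 1, r c)).mpr rfl
  have h3 : t = t0 * t1 * t2 := by
    apply hy.inj
    rw [h, map_mul, map_mul, h0, h1, h2]
  rw [h3, map_mul, map_mul, hy.ker_comm μ (x := (r (2 * a), 1, 1)) (v := (sr 0, sr 0, 1)) rfl rfl t0
      (h0.trans (comm0 a)),
    hy.ker_comm μ (x := (1, r (2 * b), 1)) (v := (sr 0, sr 0, 1)) rfl rfl t1 (h1.trans (comm1 b)),
    hy.ker_comm μ (x := (1, 1, r (2 * c))) (v := (sr 0, 1, sr 0)) rfl rfl t2 (h2.trans (comm2 c))]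
  simp

theorem Hyp.main (hy : Hyp H T j) : H = ⊤ := by
  classical
  haveI : Fintype G := Fintype.ofFinite G
  haveI : Fintype H := Fintype.ofFinite H
  obtain ⟨Y, hY⟩ := hy.exists_Y
  haveI : Fact (Nat.Prime 3) := ⟨by norm_num⟩
  have hnc : ¬ IsCyclic T := by
    intro hc
    obtain ⟨g, hg⟩ := hc.exists_generator
    have h1 : orderOf g = 27 := by
      rw [← hy.card]; exact orderOf_eq_card_of_forall_mem_zpowers hg
    have h2 : g ^ 3 = 1 := Subtype.ext (hy.cube g g.2)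
    have h3 := orderOf_dvd_of_pow_eq_one h2
    rw [h1] at h3
    norm_num at h3
  haveI hnn : (⨅ i, (Y i).ker).Normal := by
    refine ⟨fun x hx g => ?_⟩
    rw [Subgroup.mem_iInf] at hx ⊢
    exact fun i => (MonoidHom.normal_ker (Y i)).conj_mem x (hx i) g
  refine top_of_complement (p := 3) H T (⨅ i, (Y i).ker)
    hy.norm (IsPGroup.of_card (n := 3) (by rw [hy.card]; norm_num))
    ⟨⟨fun a b => Subtype.ext (hy.comm a a.2 b b.2)⟩⟩ hnc hy.cent ?_ ?_
  · intro t ht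
    rw [Subgroup.mem_iInf]
    intro i
    rw [MonoidHom.mem_ker]
    exact hy.ker_rot ((Y i).comp H.subtype) ⟨t, hy.le ht⟩ ((hy.mem_T _).mp ht)
  · intro x hxN hxH
    by_contra hxT
    set x' : H := ⟨x, hxH⟩ with hx'
    have hr : ¬ rot (j x') := fun h => hxT ((hy.mem_T x').mpr h)
    have hsx : sp (j x') = 1 := (hy.rng _).mp ⟨x', rfl⟩
    obtain ⟨n, hn⟩ := dec_n _ hsx hr
    have hin : n + 1 ≠ n := by fin_cases n <;> decide
    have h1 := hY (n + 1) n
    rw [if_neg hin] at h1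
    have h2 : ∀ h : H, Af n (j h) ≠ 0 → Y (n + 1) (h : G) = 1 := by
      intro h hA
      have h3 := dec_A n _ hA
      have hsh : sp (j h) = 1 := (hy.rng _).mp ⟨h, rfl⟩
      by_cases hrh : rot (j h)
      · exact hy.ker_rot ((Y (n + 1)).comp H.subtype) h hrh
      · have h4 := dec_r n _ hsx hr hn _ hsh h3 hrh
        rw [← map_inv, ← map_mul] at h4
        have h5 := hy.ker_rot ((Y (n + 1)).comp H.subtype) (h * x'⁻¹) h4
        rw [map_mul, map_inv] at h5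
        have h6 : ((Y (n + 1)).comp H.subtype) x' = 1 := by
          have := (Subgroup.mem_iInf.mp hxN (n + 1))
          rw [MonoidHom.mem_ker] at this
          exact this
        rw [h6, inv_one, mul_one] at h5
        exact h5
    have h3 : classInner (fun h : H => ((Y (n + 1) h : ℂˣ) : ℂ)) (fn j (Af n)) =
        classInner (fun _ : H => (1 : ℂ)) (fn j (Af n)) := by
      rw [classInner, classInner]
      congr 1
      refine Finset.sum_congr rfl fun h _ => ?_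
      by_cases hA : Af n (j h) = 0
      · simp [fn, hA]
      · rw [h2 h hA]; simp
    rw [h3, ← ci_conj_symm, ci_fn_one hy.inj hy.rng (Af n) (-1) (by rw [S_A]; norm_num)] at h1
    norm_num at h1

end Cfsg.Agent.H21.Exc701
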