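import Mathlib
import Cfsg.Agent.H21_GLf8
import Cfsg.Agent.H21_GLo7

/-!
# Isometries of forms over finite fields, IX: direct powers of `PSp`
-/

set_option autoImplicit false
open Polynomial Matrix

namespace Cfsg.Agent.H21.GLf

open Cfsg.Agent.H5 Cfsg.Agent.H21.GLo

theorem sp_powers {F : Type*} [Field F] [Fintype F] (p n m : ℕ) [hp : Fact p.Prime] [CharP F p] (hp2 : p ≠ 2) (hn : 2 ≤ n) :
    Set.range (orderOf : Cfsg.PSp n F × Cfsg.PSp n F × Cfsg.PSp n F × Multiplicative (Fin m → ZMod 2) → ℕ) =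
      Set.range (orderOf : Cfsg.PSp n F × Cfsg.PSp n F × Cfsg.PSp n F → ℕ) ∧
    ((¬ ∃ j : ℕ, 2 * n - 1 = p ^ j) →
      Set.range (orderOf : Cfsg.PSp n F × Cfsg.PSp n F × Multiplicative (Fin m → ZMod 2) → ℕ) =
        Set.range (orderOf : Cfsg.PSp n F × Cfsg.PSp n F → ℕ)) := by
  haveI : Finite (Cfsg.PSp n F) := inferInstance
  have hr : Nat.Prime 2 := Nat.prime_two
  have hpodd : Odd p := hp.out.odd_of_ne_two hp2
  set O := Set.range (orderOf : Cfsg.PSp n F → ℕ) with hO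
  have hone : 1 ∈ O := ⟨1, orderOf_one⟩
  have hr1 : 2 ∈ O := by
    have h1 := mixed_sp (F := F) p hp2 (d := 1) (e := n - 1) (w := 1) (t := 0) (by omega) (by omega) odd_one (Or.inl (one_dvd _))
      (by intro h; exact hp.out.one_lt.ne' (Nat.dvd_one.mp h)) (Or.inl rfl)
    have h2 : 1 + (n - 1) = n := by omega
    rw [h2, pow_zero, mul_one, mul_one] at h1
    exact h1
  have hpos : ∀ a ∈ O, a ≠ 0 := by rintro _ ⟨g, rfl⟩; exact (orderOf_pos g).ne'
  have hdvd : ∀ a ∈ O, ∀ b, b ∣ a → b ∈ O := fun a ha b hb => mem_range_of_dvd ha hb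
  obtain ⟨M, hM1, hM2⟩ : ∃ M : ℕ, (∀ o, (o ∣ Fintype.card F ^ n + 1 ∧ ¬ 4 ∣ Fintype.card F ^ n + 1) ∨
      (o ∣ Fintype.card F ^ n - 1 ∧ ¬ 4 ∣ Fintype.card F ^ n - 1) → o ∣ M) ∧ (∀ w, Odd w → w ∣ M → w ∈ O) := by
    have hqodd : Odd (Fintype.card F ^ n) := by
      obtain ⟨a, ha⟩ := FiniteField.card F p
      rw [ha.2]
      exact (hpodd.pow).pow
    obtain ⟨c, hc⟩ := hqodd
    rcases Nat.even_or_odd c with ⟨e, he⟩ | ⟨e, he⟩
    · refine ⟨Fintype.card F ^ n + 1, ?_, fun w hw hwd => torus_mem (by omega) hw (Or.inr hwd)⟩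
      rintro o (⟨h1, -⟩ | ⟨-, h2⟩)
      · exact h1
      · exact absurd ⟨e, by omega⟩ h2
    · refine ⟨Fintype.card F ^ n - 1, ?_, fun w hw hwd => torus_mem (by omega) hw (Or.inl hwd)⟩
      rintro o (⟨-, h2⟩ | ⟨h1, -⟩)
      · exact absurd ⟨e + 1, by omega⟩ h2
      · exact h1
  have hdich0 : ∀ a ∈ O, ¬ 2 ∣ a → 2 * a ∈ O ∨ a ∣ M ∨ (∃ t, a = p ^ (t + 1) ∧ 2 * n - 1 = p ^ t) := by
    intro a ha h2a
    have hodd : Odd a := by
      rw [← Nat.not_even_iff_odd, even_iff_two_dvd]; exact h2a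
    rcases sp_cases p hp2 hn ha hodd with h | h | h | h
    · left; exact h
    · right; left; exact hM1 a (Or.inl h)
    · right; left; exact hM1 a (Or.inr h)
    · right; right; exact h
  have hdich : ∀ a ∈ O, ¬ 2 ∣ a → 2 * a ∈ O ∨ ∃ T : ℕ, a ∣ p ^ T * M := by
    intro a ha h2a
    rcases hdich0 a ha h2a with h | h | ⟨t, h, -⟩
    · left; exact h
    · right; exact ⟨0, by rw [pow_zero, one_mul]; exact h⟩
    · right; exact ⟨t + 1, by rw [h]; exact Dvd.intro _ rfl⟩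
  have hZ : ∀ t ∈ Set.range (orderOf : Multiplicative (Fin m → ZMod 2) → ℕ), t = 1 ∨ t = 2 := by
    rintro _ ⟨z, rfl⟩
    have h1 : z ^ 2 = 1 := by
      apply Multiplicative.toAdd.injective
      funext i
      change 2 • (Multiplicative.toAdd z i) = 0
      rw [nsmul_eq_mul, CharP.cast_eq_zero, zero_mul]
    exact (Nat.dvd_prime hr).mp (orderOf_dvd_of_pow_eq_one h1)
  have hZ1 : 1 ∈ Set.range (orderOf : Multiplicative (Fin m → ZMod 2) → ℕ) := ⟨1, orderOf_one⟩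
  have hrmul : ∀ a, ¬ 2 ∣ a → 2 * a = Nat.lcm 2 a := fun a ha => (Nat.Coprime.lcm_eq_mul ((Nat.Prime.coprime_iff_not_dvd hr).mpr ha)).symm
  -- the local situation
  have hloc : ∀ m0 : ℕ, m0 ≠ 0 → ¬ 2 ∣ m0 → (∃ T, m0 ∣ p ^ T * M) → ∃ s w, m0 = Nat.lcm (p ^ s) w ∧ w ∈ O := by
    rintro m0 hm0 h2m0 ⟨T, hT⟩
    obtain ⟨s, w, hw, hm⟩ := Nat.exists_eq_pow_mul_and_not_dvd hm0 p hp.out.ne_one
    have hcop : Nat.Coprime p w := (Nat.Prime.coprime_iff_not_dvd hp.out).mpr hw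
    refine ⟨s, w, ?_, hM2 w ?_ ?_⟩
    · rw [hm, (Nat.Coprime.pow_left s hcop).lcm_eq_mul]
    · rw [← Nat.not_even_iff_odd, even_iff_two_dvd]
      intro h
      exact h2m0 (h.trans (Dvd.intro_left _ hm.symm))
    · apply (Nat.Coprime.pow_left T hcop).symm.dvd_of_dvd_mul_left
      exact (Dvd.intro_left _ hm.symm).trans hT
  constructor
  · ext k
    rw [mem_range_prod, mem_range_prod]
    simp only [mem_range_prod]
    constructor
    · rintro ⟨a, ha, _, ⟨b, hb, _, ⟨c, hc, t, ht, rfl⟩, rfl⟩, rfl⟩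
      rw [← hO] at ha hb hc
      rcases hZ t ht with rfl | rfl
      · exact ⟨a, ha, _, ⟨b, hb, c, hc, rfl⟩, by rw [Nat.lcm_one_right]⟩
      · have ht : Nat.lcm a (Nat.lcm b (Nat.lcm c 2)) = Nat.lcm (Nat.lcm a (Nat.lcm b c)) 2 := by
          rw [Nat.lcm_assoc, Nat.lcm_assoc]
        rw [ht]
        by_cases hra : 2 ∣ Nat.lcm a (Nat.lcm b c)
        · refine ⟨a, ha, _, ⟨b, hb, c, hc, rfl⟩, ?_⟩
          exact Nat.lcm_eq_left hra
        · have h1 : ¬ 2 ∣ a := fun h => hra (h.trans (Nat.dvd_lcm_left _ _))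
          have h2 : ¬ 2 ∣ b := fun h => hra ((h.trans (Nat.dvd_lcm_left _ _)).trans (Nat.dvd_lcm_right _ _))
          have h3 : ¬ 2 ∣ c := fun h => hra ((h.trans (Nat.dvd_lcm_right _ _)).trans (Nat.dvd_lcm_right _ _))
          rcases hdich a ha h1 with hPa | ⟨Ta, hTa⟩
          · refine ⟨2 * a, hPa, _, ⟨b, hb, c, hc, rfl⟩, ?_⟩
            rw [hrmul a h1, Nat.lcm_comm, Nat.lcm_assoc]
          rcases hdich b hb h2 with hPb | ⟨Tb, hTb⟩
          · refine ⟨a, ha, _, ⟨2 * b, hPb, c, hc, rfl⟩, ?_⟩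
            rw [hrmul b h2, Nat.lcm_assoc, Nat.lcm_comm (Nat.lcm b c) 2, Nat.lcm_assoc 2 b c]
          rcases hdich c hc h3 with hPc | ⟨Tc, hTc⟩
          · refine ⟨a, ha, _, ⟨b, hb, 2 * c, hPc, rfl⟩, ?_⟩
            rw [hrmul c h3, Nat.lcm_assoc, Nat.lcm_assoc, Nat.lcm_comm c 2]
          · have hall : Nat.lcm a (Nat.lcm b c) ∣ p ^ (Ta + Tb + Tc) * M := by
              apply Nat.lcm_dvd (hTa.trans (Nat.mul_dvd_mul_right (pow_dvd_pow p (by omega)) M))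
              apply Nat.lcm_dvd (hTb.trans (Nat.mul_dvd_mul_right (pow_dvd_pow p (by omega)) M))
              exact (hTc.trans (Nat.mul_dvd_mul_right (pow_dvd_pow p (by omega)) M))
            have hbc0 := Nat.lcm_ne_zero (hpos b hb) (hpos c hc)
            have habc0 := Nat.lcm_ne_zero (hpos a ha) hbc0
            obtain ⟨s, w, hsw, hw⟩ := hloc _ habc0 hra ⟨_, hall⟩
            have hps : p ^ s ∈ O := by
              have h4 : p ^ s ∣ Nat.lcm a (Nat.lcm b c) := by rw [hsw]; exact Nat.dvd_lcm_left _ _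
              rcases prime_pow_dvd_lcm' hp.out (hpos a ha) hbc0 h4 with h5 | h5
              · exact hdvd a ha _ h5
              · rcases prime_pow_dvd_lcm' hp.out (hpos b hb) (hpos c hc) h5 with h6 | h6
                · exact hdvd b hb _ h6
                · exact hdvd c hc _ h6
            refine ⟨p ^ s, hps, _, ⟨w, hw, 2, hr1, rfl⟩, ?_⟩
            rw [hsw, Nat.lcm_assoc]
    · rintro ⟨a, ha, _, ⟨b, hb, c, hc, rfl⟩, rfl⟩
      exact ⟨a, ha, _, ⟨b, hb, _, ⟨c, hc, 1, hZ1, rfl⟩, rfl⟩, by rw [Nat.lcm_one_right]⟩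
  · intro hnp
    ext k
    rw [mem_range_prod, mem_range_prod]
    simp only [mem_range_prod]
    constructor
    · rintro ⟨a, ha, _, ⟨b, hb, t, ht, rfl⟩, rfl⟩
      rw [← hO] at ha hb
      rcases hZ t ht with rfl | rfl
      · exact ⟨a, ha, b, hb, by rw [Nat.lcm_one_right]⟩
      · have ht : Nat.lcm a (Nat.lcm b 2) = Nat.lcm (Nat.lcm a b) 2 := by
          rw [Nat.lcm_assoc]
        rw [ht]
        by_cases hra : 2 ∣ Nat.lcm a b
        · exact ⟨a, ha, b, hb, Nat.lcm_eq_left hra⟩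
        · have h1 : ¬ 2 ∣ a := fun h => hra (h.trans (Nat.dvd_lcm_left _ _))
          have h2 : ¬ 2 ∣ b := fun h => hra (h.trans (Nat.dvd_lcm_right _ _))
          rcases hdich0 a ha h1 with hPa | hTa | ⟨j, -, hj⟩
          · refine ⟨2 * a, hPa, b, hb, ?_⟩
            rw [hrmul a h1, Nat.lcm_comm, Nat.lcm_assoc]
          · rcases hdich0 b hb h2 with hPb | hTb | ⟨j, -, hj⟩
            · refine ⟨a, ha, 2 * b, hPb, ?_⟩
              rw [hrmul b h2, Nat.lcm_assoc, Nat.lcm_comm b 2]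
            · have hodd : Odd (Nat.lcm a b) := by
                rw [← Nat.not_even_iff_odd, even_iff_two_dvd]; exact hra
              exact ⟨Nat.lcm a b, hM2 _ hodd (Nat.lcm_dvd hTa hTb), 2, hr1, rfl⟩
            · exact absurd ⟨j, hj⟩ hnp
          · exact absurd ⟨j, hj⟩ hnp
    · rintro ⟨a, ha, b, hb, rfl⟩
      exact ⟨a, ha, _, ⟨b, hb, 1, hZ1, rfl⟩, by rw [Nat.lcm_one_right]⟩

end Cfsg.Agent.H21.GLf
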