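import Mathlib
import Cfsg.Agent.H21_GLu6

/-!
# Unitary groups, VII: element orders of `PSU_3(q)`
-/

set_option autoImplicit false
open Polynomial
open scoped Matrix

namespace Cfsg.Agent.H21.GLu

open Cfsg.Agent.H5 Cfsg.Agent.H21.GLo Cfsg.Agent.H21.GLf

universe u v w

theorem exists_dec {M : Type*} [Monoid M] {f : M} {P w : ℕ} (h : f ^ (P * w) = 1) (hcop : Nat.Coprime P w) :
    ∃ m m' : ℕ, f ^ m * f ^ m' = f ∧ (f ^ m) ^ w = 1 ∧ (f ^ m') ^ P = 1 := by
  obtain ⟨m, hm1, hm2⟩ := Nat.chineseRemainder hcop 0 1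
  obtain ⟨m', hm1', hm2'⟩ := Nat.chineseRemainder hcop 1 0
  refine ⟨m, m', ?_, ?_, ?_⟩
  · rw [← pow_add]
    have h1 : m + m' ≡ 1 [MOD P * w] := by
      rw [← Nat.modEq_and_modEq_iff_modEq_mul hcop]
      exact ⟨by simpa using hm1.add hm1', by simpa using hm2.add hm2'⟩
    rw [pow_eq_pow_mod _ h, h1, ← pow_eq_pow_mod _ h, pow_one]
  · obtain ⟨c, hc⟩ := (Nat.modEq_zero_iff_dvd).mp hm1
    rw [← pow_mul, hc]
    have : P * c * w = P * w * c := by ring
    rw [this, pow_mul, h, one_pow]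
  · obtain ⟨c, hc⟩ := (Nat.modEq_zero_iff_dvd).mp hm2'
    rw [← pow_mul, hc]
    have : w * c * P = P * w * c := by ring
    rw [this, pow_mul, h, one_pow]

section

variable {F : Type*} [Field F] {V : Type*} [AddCommGroup V] [Module F V] [Module.Finite F V]

theorem line_scalar (h : Module.finrank F V = 1) (P : Module.End F V) : ∃ a : F, P = algebraMap F _ a := by
  obtain ⟨v, hv, hv1⟩ := finrank_eq_one_iff'.mp h
  obtain ⟨a, ha⟩ := hv1 (P v)
  refine ⟨a, LinearMap.ext fun x => ?_⟩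
  obtain ⟨c, rfl⟩ := hv1 x
  rw [Module.algebraMap_end_apply, map_smul, ← ha, smul_comm]

omit [Module.Finite F V] in
theorem eq_of_parts {e P Q : Module.End F V} (he : e * e = e) (hP : Commute e P) (hQ : Commute e Q) (h1 : rho e P = rho e Q)
    (h2 : rho (1 - e) P = rho (1 - e) Q) : P = Q := by
  have he' : (1 - e) * (1 - e) = 1 - e := by
    rw [sub_mul, mul_sub, mul_sub, one_mul, one_mul, mul_one, he]; abel
  have hP' : Commute (1 - e) P := (Commute.one_left P).sub_left hP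
  have hQ' : Commute (1 - e) Q := (Commute.one_left Q).sub_left hQ
  have k1 : P * e = Q * e := mul_eq_of_rho he hP hQ h1
  have k2 : P * (1 - e) = Q * (1 - e) := mul_eq_of_rho he' hP' hQ' h2
  calc P = P * e + P * (1 - e) := by rw [← mul_add, add_sub_cancel, mul_one]
    _ = Q := by rw [k1, k2, ← mul_add, add_sub_cancel, mul_one]

variable [Fintype F] {q : ℕ}

omit [Module.Finite F V] in
theorem scalar_norm (hF : Fintype.card F = q ^ 2) [Nontrivial V] {A : Frm F (Fld.frob hF) 1 (Herm.tr hF) V} (hA : A.Nondeg) {P : Module.End F V}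
    (hP : ∀ u v, A.B (P u) (P v) = A.B u v) {a : F} (h : P = algebraMap F _ a) : a ^ (q + 1) = 1 := by
  obtain ⟨x, hx⟩ := exists_ne (0 : V)
  obtain ⟨y, hy⟩ : ∃ y, A.B x y ≠ 0 := by
    by_contra hcon
    push Not at hcon
    exact hx (hA x hcon)
  have h1 := hP x y
  rw [h, Module.algebraMap_end_apply, Module.algebraMap_end_apply, LinearMap.map_smulₛₗ₂, map_smul, smul_smul, smul_eq_mul, Fld.frob_apply, ← pow_succ] at h1
  exact mul_right_cancel₀ hy (h1.trans (one_mul _).symm)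

theorem det_scalar (a : F) : LinearMap.det (algebraMap F (Module.End F V) a) = a ^ Module.finrank F V := by
  rw [Algebra.algebraMap_eq_smul_one, LinearMap.det_smul, map_one, mul_one]

/-- isometries of a hermitian line -/
theorem line_iso (hF : Fintype.card F = q ^ 2) (h : Module.finrank F V = 1) {A : Frm F (Fld.frob hF) 1 (Herm.tr hF) V} (hA : A.Nondeg)
    {P : Module.End F V} (hP : ∀ u v, A.B (P u) (P v) = A.B u v) : ∃ a : F, P = algebraMap F _ a ∧ a ^ (q + 1) = 1 ∧ LinearMap.det P = a := by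
  haveI : Nontrivial V := Module.nontrivial_of_finrank_pos (R := F) (by omega)
  obtain ⟨a, ha⟩ := line_scalar h P
  refine ⟨a, ha, scalar_norm hF hA hP ha, ?_⟩
  rw [ha, det_scalar, h, pow_one]

/-- isometries of hermitian planes -/
theorem two_dim (p : ℕ) [hp : Fact p.Prime] [CharP F p] (hF : Fintype.card F = q ^ 2) (h2 : Module.finrank F V = 2)
    {A : Frm F (Fld.frob hF) 1 (Herm.tr hF) V} (hA : A.Nondeg) (hh : Herm.IsHerm hF A)
    {f Y U : Module.End F V} (hf : ∀ u v, A.B (f u) (f v) = A.B u v) (hYi : ∀ u v, A.B (Y u) (Y v) = A.B u v)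
    (hUi : ∀ u v, A.B (U u) (U v) = A.B u v) {w T : ℕ} (hfd : Y * U = f) (hYU : Commute U Y)
    (hY : Y ^ w = 1) (hU : U ^ (p ^ T) = 1) (hw : ¬ p ∣ w) :
    f ^ (q + 1) = 1 ∨ (∃ b : F, b ^ (q + 1) = 1 ∧ f ^ p = algebraMap F _ b) ∨
      (∃ c : F, c ≠ 0 ∧ (∀ (N : ℕ) (a : F), a ^ (q + 1) = 1 → c ^ N = a → f ^ N = algebraMap F _ a) ∧ LinearMap.det f * c ^ q = c) := by
  haveI : Nontrivial V := Module.nontrivial_of_finrank_pos (R := F) (by omega)
  haveI : CharP (Module.End F V) p := charP_of_injective_algebraMap (algebraMap F (Module.End F V)).injective p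
  have hYf : Commute Y f := by rw [← hfd]; exact (Commute.refl Y).mul_right hYU.symm
  by_cases hno : ∀ e : Module.End F V, Idem Y e → Adj A e e → e = 0 ∨ e = 1
  · rcases su_struct p hF hA hh hYi hY hw hno with ⟨D, k, hD, hk, hDk, hYD, ⟨c, hc, hYc, hdc⟩, -, hnil⟩ | ⟨D, k, e, e', hD, hk, hDk, he, he', hee, hee', h1, hadj, hYD, ⟨c, hc, hYc, hdc⟩, hsc, -, hnil⟩
    · -- `D = 1`
      right; left
      rw [h2] at hDk
      have hD1 : D = 1 := by
        obtain ⟨j, hj⟩ := hD
        have hD2 : D ∣ 2 := ⟨k, hDk.symm⟩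
        have := Nat.le_of_dvd (by norm_num) hD2
        omega
      subst hD1
      rw [one_mul] at hDk
      subst hDk
      have hS1 : Sn q 1 = 1 := by
        have := Sn_mul_odd (q := q) (n := 1) (by have := Fld.one_lt_q hF; omega) odd_one
        rw [pow_one] at this
        have h0 : 0 < q + 1 := by omega
        exact Nat.eq_of_mul_eq_mul_right h0 (by rw [this, one_mul])
      rw [hS1, pow_one] at hYc
      have hU2 := hnil U hYU ⟨T, hU⟩
      have hUp : U ^ p = 1 := by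
        have h3 : (U - 1) ^ p = 0 := by
          obtain ⟨d, hd⟩ := Nat.exists_eq_add_of_le hp.out.two_le
          rw [hd, pow_add, hU2, zero_mul]
        rw [sub_pow_char_of_commute _ (Commute.one_right U), one_pow, sub_eq_zero] at h3
        exact h3
      refine ⟨c ^ p, by rw [← pow_mul, mul_comm, pow_mul, hc, one_pow], ?_⟩
      rw [← hfd, hYU.symm.mul_pow, hUp, mul_one, hYc, map_pow]
    · right; right
      have hDk1 : D = 1 ∧ k = 1 := by
        have h3 : D * k = 1 := by omega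
        exact ⟨Nat.eq_one_of_mul_eq_one_right h3, Nat.eq_one_of_mul_eq_one_left h3⟩
      obtain ⟨rfl, rfl⟩ := hDk1
      have hU1 := hnil U hUi hYU ⟨T, hU⟩
      rw [pow_one, sub_eq_zero] at hU1
      have hfY : f = Y := by rw [← hfd, hU1, mul_one]
      rw [← hfY] at hYc hdc hsc
      rw [Finset.sum_range_one, pow_zero, pow_one] at hYc
      rw [pow_one] at hdc
      refine ⟨c, hc, ?_, hdc⟩
      intro N a ha hca
      apply hsc N a ha
      have hcf : Commute e f := he.commute hYf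
      have hpowe : ∀ m : ℕ, f ^ m * e = c ^ m • e := by
        intro m
        induction m with
        | zero => rw [pow_zero, pow_zero, one_mul, one_smul]
        | succ m ih => rw [pow_succ, mul_assoc, hYc, mul_smul_comm, ih, smul_smul, pow_succ']
      rw [hpowe, hca]
  · left
    push Not at hno
    obtain ⟨e, he, hee, he0, he1⟩ := hno
    have hcf : Commute e f := he.commute hYf
    have he' := one_sub_idem he
    have hee' := one_sub_adj hee
    have hcf' : Commute (1 - e) f := (Commute.one_left f).sub_left hcf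
    obtain ⟨hsum, hp1, hp2⟩ := finrank_parts he.1 he0 he1
    rw [h2] at hsum
    apply pow_eq_one_of_parts he.1 hcf
    · obtain ⟨a, ha, haq, -⟩ := line_iso hF (show Module.finrank F (LinearMap.range e) = 1 by omega) (nondeg_range hA he.1 hee) (iso_range he.1 hcf hf)
      rw [ha, ← map_pow, haq, map_one]
    · obtain ⟨a, ha, haq, -⟩ := line_iso hF (show Module.finrank F (LinearMap.range (1 - e)) = 1 by omega) (nondeg_range hA he'.1 hee') (iso_range he'.1 hcf' hf)
      rw [ha, ← map_pow, haq, map_one]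

/-- a common scalar -/
theorem scalar_of_parts {e f : Module.End F V} (he : e * e = e) (hc : Commute e f) {t : ℕ} {x : F} (h1 : rho e f ^ t = algebraMap F _ x)
    (h2 : rho (1 - e) f ^ t = algebraMap F _ x) : f ^ t = algebraMap F _ x := by
  have he' : (1 - e) * (1 - e) = 1 - e := by
    rw [sub_mul, mul_sub, mul_sub, one_mul, one_mul, mul_one, he]; abel
  have hc' : Commute (1 - e) f := (Commute.one_left f).sub_left hc
  apply eq_of_parts he (hc.pow_right t) (Algebra.commutes x e).symm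
  · rw [rho_pow he hc, h1, rho_algebraMap he]
  · rw [rho_pow he' hc', h2, rho_algebraMap he']

theorem three_idem (p : ℕ) [hp : Fact p.Prime] [CharP F p] (hF : Fintype.card F = q ^ 2)
    {A : Frm F (Fld.frob hF) 1 (Herm.tr hF) V} (hA : A.Nondeg) (hh : Herm.IsHerm hF A)
    {f Y U : Module.End F V} (hf : ∀ u v, A.B (f u) (f v) = A.B u v) (hYi : ∀ u v, A.B (Y u) (Y v) = A.B u v)
    (hUi : ∀ u v, A.B (U u) (U v) = A.B u v) {w T : ℕ} (hfd : Y * U = f) (hYU : Commute U Y)
    (hY : Y ^ w = 1) (hU : U ^ (p ^ T) = 1) (hw : ¬ p ∣ w) (hdet : LinearMap.det f = 1)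
    {e : Module.End F V} (he : Idem Y e) (hee : Adj A e e) (he1 : Module.finrank F (LinearMap.range e) = 1)
    (he2 : Module.finrank F (LinearMap.range (1 - e)) = 2) :
    ∃ t : ℕ, (t = q + 1 ∨ t = p * ((q + 1) / Nat.gcd 3 (q + 1)) ∨ t = (q ^ 2 - 1) / Nat.gcd 3 (q + 1)) ∧ ∃ x : F, f ^ t = algebraMap F _ x := by
  have hq2 : 2 ≤ q := Fld.one_lt_q hF
  have hYf : Commute Y f := by rw [← hfd]; exact (Commute.refl Y).mul_right hYU.symm
  have hUf : Commute U f := by rw [← hfd]; exact hYU.mul_right (Commute.refl U)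
  have hcf : Commute e f := he.commute hYf
  have hcY : Commute e Y := he.commute (Commute.refl Y)
  have hcU : Commute e U := he.commute hYU.symm
  have he' := one_sub_idem he
  have hee' := one_sub_adj hee
  have hcf' : Commute (1 - e) f := (Commute.one_left f).sub_left hcf
  have hcY' : Commute (1 - e) Y := (Commute.one_left Y).sub_left hcY
  have hcU' : Commute (1 - e) U := (Commute.one_left U).sub_left hcU
  obtain ⟨a, ha, haq, had⟩ := line_iso hF he1 (nondeg_range hA he.1 hee) (iso_range he.1 hcf hf)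
  have hds := det_split he.1 hcf
  rw [hdet, had] at hds
  obtain ⟨s, hs⟩ := Nat.gcd_dvd_right 3 (q + 1)
  obtain ⟨z, hz⟩ := Nat.gcd_dvd_left 3 (q + 1)
  set d := Nat.gcd 3 (q + 1) with hd
  have hd0 : 0 < d := Nat.gcd_pos_of_pos_left _ (by norm_num)
  have hsd : (q + 1) / d = s := by rw [hs]; exact Nat.mul_div_cancel_left _ hd0
  have hqq : q ^ 2 - 1 = (q + 1) * (q - 1) := by
    obtain ⟨t, rfl⟩ : ∃ t, q = t + 1 := ⟨q - 1, by omega⟩
    have : (t + 1) ^ 2 = (t + 1 + 1) * t + 1 := by ring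
    rw [this, Nat.add_sub_cancel, Nat.add_sub_cancel]
  have hqd : (q ^ 2 - 1) / d = s * (q - 1) := by
    rw [hqq, hs, mul_assoc]; exact Nat.mul_div_cancel_left _ hd0
  rcases two_dim p hF he2 (nondeg_range hA he'.1 hee') (hh.restrict _) (iso_range he'.1 hcf' hf) (iso_range he'.1 hcY' hYi) (iso_range he'.1 hcU' hUi)
    (w := w) (T := T) (by rw [← rho_mul he'.1 hcY' hcU', hfd])
    (by change rho (1 - e) U * rho (1 - e) Y = rho (1 - e) Y * rho (1 - e) U
        rw [← rho_mul he'.1 hcU' hcY', ← rho_mul he'.1 hcY' hcU', hYU.eq])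
    (rho_pow_one he'.1 hcY' hY) (rho_pow_one he'.1 hcU' hU) hw with h | ⟨b, hb, h⟩ | ⟨c, hc0, hcs, hcd⟩
  · refine ⟨q + 1, Or.inl rfl, 1, ?_⟩
    apply scalar_of_parts he.1 hcf
    · rw [ha, ← map_pow, haq]
    · rw [h, map_one]
  · refine ⟨p * s, Or.inr (Or.inl (by rw [hsd])), b ^ s, ?_⟩
    have hdb : a ^ p * b ^ 2 = 1 := by
      have h3 := congrArg LinearMap.det h
      rw [map_pow, det_scalar, he2] at h3
      rw [← h3, ← mul_pow, ← hds, one_pow]
    have hb3 : b ^ (3 * s) = 1 := by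
      have : 3 * s = (q + 1) * z := by
        rw [hs]; nlinarith [hz]
      rw [this, pow_mul, hb, one_pow]
    apply scalar_of_parts he.1 hcf
    · rw [ha, ← map_pow, pow_mul]
      congr 1
      have hb0 : b ^ (2 * s) ≠ 0 := by
        intro h0
        have : b = 0 := by
          rcases Nat.eq_zero_or_pos (2 * s) with h1 | h1
          · rw [h1, pow_zero] at h0; exact absurd h0 one_ne_zero
          · exact pow_eq_zero_iff (Nat.pos_iff_ne_zero.mp h1) |>.mp h0
        rw [this, zero_pow (by omega)] at hb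
        exact zero_ne_one hb
      apply mul_right_cancel₀ hb0
      calc (a ^ p) ^ s * b ^ (2 * s) = (a ^ p * b ^ 2) ^ s := by rw [mul_pow, pow_mul b 2 s]
        _ = b ^ (3 * s) := by rw [hdb, one_pow, hb3]
        _ = b ^ s * b ^ (2 * s) := by rw [← pow_add]; congr 1; ring
    · rw [pow_mul, h, ← map_pow]
  · refine ⟨s * (q - 1), Or.inr (Or.inr hqd.symm), c ^ (s * (q - 1)), ?_⟩
    have hcF : c ^ ((q + 1) * (q - 1)) = 1 := by
      rw [← hqq, ← hF]; exact FiniteField.pow_card_sub_one_eq_one c hc0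
    have hac : a = c ^ (q - 1) := by
      apply mul_right_cancel₀ hc0
      rw [← pow_succ, Nat.sub_add_cancel (by omega)]
      calc a * c = a * (LinearMap.det (rho (1 - e) f) * c ^ q) := by rw [hcd]
        _ = c ^ q := by rw [← mul_assoc, ← hds, one_mul]
    apply scalar_of_parts he.1 hcf
    · rw [ha, ← map_pow]
      congr 1
      rw [hac, ← pow_mul]
      have h3 : (q - 1) * (s * (q - 1)) = s * (q - 1) + (q - 2) * (s * (q - 1)) := by
        obtain ⟨t, rfl⟩ : ∃ t, q = t + 2 := ⟨q - 2, by omega⟩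
        have e1 : t + 2 - 1 = t + 1 := by omega
        have e2 : t + 2 - 2 = t := by omega
        rw [e1, e2]; ring
      have hdq : d ∣ q - 2 := by
        have h4 : d ∣ q + 1 := ⟨s, hs⟩
        have h5 : d ∣ 3 := ⟨z, hz⟩
        have h6 := Nat.dvd_sub h4 h5
        have : q + 1 - 3 = q - 2 := by omega
        rwa [this] at h6
      obtain ⟨v, hv⟩ := hdq
      have h4 : (q - 2) * (s * (q - 1)) = (q + 1) * (q - 1) * v := by
        calc (q - 2) * (s * (q - 1)) = (d * s) * (q - 1) * v := by rw [hv]; ring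
          _ = (q + 1) * (q - 1) * v := by rw [← hs]
      rw [h3, pow_add, h4, pow_mul c _ v, hcF, one_pow, mul_one]
    · apply hcs _ _ _ rfl
      rw [← pow_mul]
      have : s * (q - 1) * (q + 1) = (q + 1) * (q - 1) * s := by ring
      rw [this, pow_mul, hcF, one_pow]

theorem three_dim (p : ℕ) [hp : Fact p.Prime] [CharP F p] (hp2 : p ≠ 2) (hF : Fintype.card F = q ^ 2) (h3 : Module.finrank F V = 3)
    {A : Frm F (Fld.frob hF) 1 (Herm.tr hF) V} (hA : A.Nondeg) (hh : Herm.IsHerm hF A)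
    {f Y U : Module.End F V} (hf : ∀ u v, A.B (f u) (f v) = A.B u v) (hYi : ∀ u v, A.B (Y u) (Y v) = A.B u v)
    (hUi : ∀ u v, A.B (U u) (U v) = A.B u v) {w T : ℕ} (hfd : Y * U = f) (hYU : Commute U Y)
    (hY : Y ^ w = 1) (hU : U ^ (p ^ T) = 1) (hw : ¬ p ∣ w) (hdet : LinearMap.det f = 1) :
    ∃ t : ℕ, (t = q + 1 ∨ t = p * ((q + 1) / Nat.gcd 3 (q + 1)) ∨ t = (q ^ 2 - 1) / Nat.gcd 3 (q + 1) ∨ t = M0 q 3) ∧
      ∃ x : F, f ^ t = algebraMap F _ x := by
  have hq2 : 2 ≤ q := Fld.one_lt_q hF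
  haveI : Nontrivial V := Module.nontrivial_of_finrank_pos (R := F) (by omega)
  haveI : CharP (Module.End F V) p := charP_of_injective_algebraMap (algebraMap F (Module.End F V)).injective p
  by_cases hno : ∀ e : Module.End F V, Idem Y e → Adj A e e → e = 0 ∨ e = 1
  · have hdU : LinearMap.det U = 1 := by
      apply eq_one_of_coprime (m := p ^ T) (pow_ne_zero _ hp.out.ne_zero) _ (Nat.Coprime.pow_left _ (coprime_p p))
      rw [← map_pow, hU, map_one]
    have hdY : LinearMap.det Y = 1 := by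
      rw [← hfd, map_mul, hdU, mul_one] at hdet
      exact hdet
    rcases su_struct p hF hA hh hYi hY hw hno with ⟨D, k, hD, hk, hDk, hYD, ⟨c, hc, hYc, hdc⟩, -, hnil⟩ | ⟨D, k, e, e', hD, hk, hDk, -⟩
    · rw [h3] at hDk
      have hD13 : D = 1 ∨ D = 3 := (Nat.dvd_prime Nat.prime_three).mp ⟨k, hDk.symm⟩
      rcases hD13 with rfl | rfl
      · rw [one_mul] at hDk
        subst hDk
        have hS1 : Sn q 1 = 1 := by
          have := Sn_mul_odd (q := q) (n := 1) (by have := Fld.one_lt_q hF; omega) odd_one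
          rw [pow_one] at this
          have h0 : 0 < q + 1 := by omega
          exact Nat.eq_of_mul_eq_mul_right h0 (by rw [this, one_mul])
        rw [hS1, pow_one] at hYc
        have hU2 := hnil U hYU ⟨T, hU⟩
        have hUp : U ^ p = 1 := by
          have hp3 : 3 ≤ p := by
            have := hp.out.two_le
            omega
          have h3 : (U - 1) ^ p = 0 := by
            obtain ⟨d, hd⟩ := Nat.exists_eq_add_of_le hp3
            rw [hd, pow_add, hU2, zero_mul]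
          rw [sub_pow_char_of_commute _ (Commute.one_right U), one_pow, sub_eq_zero] at h3
          exact h3
        refine ⟨p * ((q + 1) / Nat.gcd 3 (q + 1)), Or.inr (Or.inl rfl), (c ^ p) ^ ((q + 1) / Nat.gcd 3 (q + 1)), ?_⟩
        rw [pow_mul, ← hfd, hYU.symm.mul_pow, hUp, mul_one, hYc, ← map_pow, ← map_pow]
      · have hk1 : k = 1 := by omega
        subst hk1
        have hU1 := hnil U hYU ⟨T, hU⟩
        rw [pow_one, sub_eq_zero] at hU1
        have hfY : f = Y := by rw [← hfd, hU1, mul_one]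
        refine ⟨M0 q 3, Or.inr (Or.inr (Or.inr rfl)), ?_⟩
        rw [hfY]
        exact (su_pow p hF hA hh hYi hY hw hno hdY h3).2
    · omega
  · push Not at hno
    obtain ⟨e, he, hee, he0, he1⟩ := hno
    have he' := one_sub_idem he
    have hee' := one_sub_adj hee
    obtain ⟨hsum, hp1, hp2⟩ := finrank_parts he.1 he0 he1
    rw [h3] at hsum
    have key : ∃ t : ℕ, (t = q + 1 ∨ t = p * ((q + 1) / Nat.gcd 3 (q + 1)) ∨ t = (q ^ 2 - 1) / Nat.gcd 3 (q + 1)) ∧ ∃ x : F, f ^ t = algebraMap F _ x := by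
      rcases Nat.lt_or_ge 1 (Module.finrank F (LinearMap.range e)) with h | h
      · have h11 : 1 - (1 - e) = e := by abel
        exact three_idem p hF hA hh hf hYi hUi hfd hYU hY hU hw hdet he' hee' (by omega) (by rw [h11]; omega)
      · exact three_idem p hF hA hh hf hYi hUi hfd hYU hY hU hw hdet he hee (by omega) (by omega)
    obtain ⟨t, ht, hx⟩ := key
    exact ⟨t, by tauto, hx⟩

end

/-! ### existence -/

section exist

variable {F : Type u} [Field F] [Fintype F] {q : ℕ}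

theorem M0_three (hq : 2 ≤ q) : M0 q 3 = (q ^ 2 - q + 1) / Nat.gcd 3 (q + 1) := by
  have h1 := Sn_mul_odd (q := q) (n := 3) (by omega) (by decide)
  have h2 : Sn q 3 = q ^ 2 - q + 1 := by
    have h0 : 0 < q + 1 := by omega
    apply Nat.eq_of_mul_eq_mul_right h0
    rw [h1]
    have h3 : q ≤ q ^ 2 := by nlinarith
    zify [h3]
    ring
  rw [M0, h2]

theorem exists_one (hF : Fintype.card F = q ^ 2) : ∃ g : Cfsg.PSU 3 F q, (q + 1) ∣ orderOf g := by
  obtain ⟨ζ, hζ⟩ := exists_order (E := F) (m := q + 1) (by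
    rw [Nat.card_eq_fintype_card, hF]
    obtain ⟨x, rfl⟩ : ∃ x, q = x + 1 := ⟨q - 1, by have := Fld.one_lt_q hF; omega⟩
    have : (x + 1) ^ 2 = (x + 1 + 1) * x + 1 := by ring
    rw [this, Nat.add_sub_cancel]
    exact Dvd.intro _ rfl)
  have hζt : ζ ^ (q + 1) = 1 := by rw [← hζ, pow_orderOf_eq_one]
  have hζ0 : ζ ≠ 0 := by
    rintro rfl
    rw [zero_pow (by omega)] at hζt
    exact zero_ne_one hζt
  have ha1 : Fld.frob hF ζ * ζ = 1 := by rw [Fld.frob_apply, ← pow_succ, hζt]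
  have ha2 : Fld.frob hF ζ⁻¹ * ζ⁻¹ = 1 := by rw [Fld.frob_apply, ← pow_succ, inv_pow, hζt, inv_one]
  have ha3 : Fld.frob hF 1 * 1 = 1 := by rw [map_one, mul_one]
  let L := fun a ha => UBlk.line F (Fld.frob hF) (Fld.frob_frob hF) a ha
  obtain ⟨g, hg⟩ := UBlk.exists_psu hF (n := 3) (by norm_num) (((L ζ ha1).sum (L ζ⁻¹ ha2)).sum (L 1 ha3)) (by
    rw [UBlk.sum_det, UBlk.sum_det, UBlk.line_det, UBlk.line_det, UBlk.line_det, mul_inv_cancel₀ hζ0, mul_one])
  obtain ⟨a, ha⟩ := (hg (orderOf g)).mp (pow_orderOf_eq_one g)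
  obtain ⟨h1, h2⟩ := UBlk.sum_scalar _ _ ha
  obtain ⟨h3, -⟩ := UBlk.sum_scalar _ _ h1
  rw [UBlk.line_pow] at h2 h3
  have h4 := (algebraMap F (Module.End F F)).injective h2
  have h5 := (algebraMap F (Module.End F F)).injective h3
  rw [one_pow] at h4
  refine ⟨g, ?_⟩
  rw [← hζ]
  apply orderOf_dvd_of_pow_eq_one
  rw [h5, ← h4]

theorem exists_two (hF : Fintype.card F = q ^ 2) : ∃ g : Cfsg.PSU 3 F q, (q ^ 2 - 1) / Nat.gcd 3 (q + 1) ∣ orderOf g := by
  have hq2 : 2 ≤ q := Fld.one_lt_q hF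
  obtain ⟨y, hy⟩ := exists_order (E := F) (m := q ^ 2 - 1) (by rw [Nat.card_eq_fintype_card, hF])
  have hqq : q ^ 2 - 1 = (q + 1) * (q - 1) := by
    obtain ⟨t, rfl⟩ : ∃ t, q = t + 1 := ⟨q - 1, by omega⟩
    have : (t + 1) ^ 2 = (t + 1 + 1) * t + 1 := by ring
    rw [this, Nat.add_sub_cancel, Nat.add_sub_cancel]
  have hpos : 0 < q ^ 2 - 1 := by rw [hqq]; exact Nat.mul_pos (by omega) (by omega)
  have hyt : y ^ (q ^ 2 - 1) = 1 := by rw [← hy, pow_orderOf_eq_one]
  have hy0 : y ≠ 0 := by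
    rintro rfl
    rw [zero_pow hpos.ne'] at hyt
    exact zero_ne_one hyt
  have ha1 : Fld.frob hF (y ^ (q - 1)) * y ^ (q - 1) = 1 := by
    rw [Fld.frob_apply, ← pow_succ, ← pow_mul, mul_comm, ← hqq, hyt]
  have hyz : Fld.frob hF y * (y⁻¹) ^ q = 1 := by rw [Fld.frob_apply, ← mul_pow, mul_inv_cancel₀ hy0, one_pow]
  have main : ∀ m, Module.finrank F F + Module.finrank F F = m → ∃ b : UBlk.{u, u} F (Fld.frob hF) m, LinearMap.det b.f = y * (y⁻¹) ^ q ∧
      ∀ (s : ℕ) (c : F), b.f ^ s = algebraMap F _ c → y ^ s = c ∧ ((y⁻¹) ^ q) ^ s = c := by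
    rintro _ rfl
    refine ⟨pairBlk (F := F) (E := F) (Fld.frob_frob hF) (Fld.frob hF) (fun c => rfl) y ((y⁻¹) ^ q) hyz, ?_, fun s c h => ?_⟩
    · rw [pairBlk_det, Algebra.norm_self, MonoidHom.id_apply, MonoidHom.id_apply]
    · exact pairBlk_pow (F := F) (E := F) (Fld.frob_frob hF) (Fld.frob hF) (fun c => rfl) y ((y⁻¹) ^ q) hyz s h
  obtain ⟨b, hbd, hbs⟩ := main 2 (by rw [Module.finrank_self])
  obtain ⟨g, hg⟩ := UBlk.exists_psu hF (n := 3) (by norm_num) (b.sum (UBlk.line F (Fld.frob hF) (Fld.frob_frob hF) _ ha1)) (by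
    rw [UBlk.sum_det, UBlk.line_det, hbd]
    calc y * (y⁻¹) ^ q * y ^ (q - 1) = (y ^ (q - 1) * y) * (y⁻¹) ^ q := by ring
      _ = 1 := by rw [← pow_succ, Nat.sub_add_cancel (by omega), ← mul_pow, mul_inv_cancel₀ hy0, one_pow])
  obtain ⟨a, ha⟩ := (hg (orderOf g)).mp (pow_orderOf_eq_one g)
  obtain ⟨h1, h2⟩ := UBlk.sum_scalar _ _ ha
  rw [UBlk.line_pow] at h2
  have h3 := (algebraMap F (Module.End F F)).injective h2
  obtain ⟨h4, h5⟩ := hbs _ _ h1
  refine ⟨g, ?_⟩
  generalize orderOf g = o at h3 h4 h5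
  -- `y ^ ((q + 1) o) = 1` and `y ^ ((q - 2) o) = 1`
  have k1 : y ^ ((q + 1) * o) = 1 := by
    have h6 : ((y⁻¹) ^ q) ^ o * (y ^ q) ^ o = 1 := by rw [← mul_pow, ← mul_pow, inv_mul_cancel₀ hy0, one_pow, one_pow]
    rw [h5, ← h4, ← pow_mul, ← pow_add] at h6
    rw [← h6]; congr 1; ring
  have k2 : y ^ ((q - 2) * o) = 1 := by
    rw [← pow_mul] at h3
    have h6 : (q - 1) * o = (q - 2) * o + o := by
      obtain ⟨t, rfl⟩ : ∃ t, q = t + 2 := ⟨q - 2, by omega⟩
      have e1 : t + 2 - 1 = t + 1 := by omega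
      have e2 : t + 2 - 2 = t := by omega
      rw [e1, e2]; ring
    rw [h6, pow_add, h4] at h3
    have hc0 : a ≠ 0 := by rw [← h4]; exact pow_ne_zero _ hy0
    exact mul_right_cancel₀ hc0 (h3.trans (one_mul _).symm)
  have k3 := orderOf_dvd_of_pow_eq_one k1
  have k4 := orderOf_dvd_of_pow_eq_one k2
  rw [hy] at k3 k4
  have k5 : q ^ 2 - 1 ∣ 3 * o := by
    have h6 := Nat.dvd_sub k3 k4
    have h7 : (q + 1) * o - (q - 2) * o = 3 * o := by
      rw [← Nat.sub_mul]; congr 1; omega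
    rwa [h7] at h6
  have k6 : q ^ 2 - 1 ∣ Nat.gcd 3 (q + 1) * o := by
    rw [← Nat.gcd_mul_right]
    exact Nat.dvd_gcd k5 k3
  have hd0 : 0 < Nat.gcd 3 (q + 1) := Nat.gcd_pos_of_pos_left _ (by norm_num)
  obtain ⟨v, hv⟩ : Nat.gcd 3 (q + 1) ∣ q ^ 2 - 1 := by
    rw [hqq]; exact (Nat.gcd_dvd_right 3 (q + 1)).mul_right _
  rw [hv, Nat.mul_div_cancel_left _ hd0]
  rw [hv] at k6
  exact Nat.dvd_of_mul_dvd_mul_left hd0 k6

end exist

/-- the spectrum of `PSU_3(q)`, `q` odd -/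
theorem psu3 {F : Type*} [Field F] [Fintype F] (p : ℕ) [hp : Fact p.Prime] [CharP F p] (hp2 : p ≠ 2) (q : ℕ) (hF : Fintype.card F = q ^ 2) :
    Set.range (orderOf : Cfsg.PSU 3 F q → ℕ) =
      {s : ℕ | s ∣ q + 1} ∪ {s : ℕ | s ∣ p * (q + 1) / Nat.gcd 3 (q + 1)} ∪
        {s : ℕ | s ∣ (q ^ 2 - 1) / Nat.gcd 3 (q + 1)} ∪ {s : ℕ | s ∣ (q ^ 2 - q + 1) / Nat.gcd 3 (q + 1)} := by
  have hq2 : 2 ≤ q := Fld.one_lt_q hF
  haveI : Finite (Cfsg.PSU 3 F q) := inferInstance
  haveI : Finite (Cfsg.SU 3 F q) := inferInstance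
  have hd := Nat.gcd_dvd_right 3 (q + 1)
  have hd0 : 0 < Nat.gcd 3 (q + 1) := Nat.gcd_pos_of_pos_left _ (by norm_num)
  have hpd : p * (q + 1) / Nat.gcd 3 (q + 1) = p * ((q + 1) / Nat.gcd 3 (q + 1)) := Nat.mul_div_assoc _ hd
  rw [hpd, ← M0_three hq2]
  ext o
  constructor
  · rintro ⟨g, rfl⟩
    obtain ⟨X, rfl⟩ := QuotientGroup.mk_surjective g
    obtain ⟨T, w, hw, ho⟩ := Nat.exists_eq_pow_mul_and_not_dvd (orderOf_pos X).ne' p hp.out.ne_one
    set f : Module.End F (Fin 3 → F) := Matrix.toLin' (Unit.mat X) with hf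
    have hpow : ∀ s : ℕ, f ^ s = Matrix.toLin' (Unit.mat X ^ s) := fun s => (map_pow (Matrix.toLinAlgEquiv' (R := F) (n := Fin 3)) (Unit.mat X) s).symm
    have hXo : Unit.mat X ^ (orderOf X) = 1 := by
      have : Unit.mat (X ^ orderOf X) = (Unit.mat X) ^ (orderOf X) := rfl
      rw [← this, pow_orderOf_eq_one]; rfl
    have hfo : f ^ (p ^ T * w) = 1 := by
      rw [← ho, hpow, hXo]
      exact Matrix.toLin'_one
    obtain ⟨m, m', hfd, hY, hU⟩ := exists_dec hfo (Nat.Coprime.pow_left T ((Nat.Prime.coprime_iff_not_dvd hp.out).mpr hw))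
    have hiso : ∀ (s : ℕ) (u v : Fin 3 → F), (Conc.hermFrm hF 3).B ((f ^ s) u) ((f ^ s) v) = (Conc.hermFrm hF 3).B u v := by
      intro s
      induction s with
      | zero => intro u v; rfl
      | succ s ih => intro u v; rw [pow_succ', Module.End.mul_apply, Module.End.mul_apply, hf, su_end hF X, ← hf, ih]
    have hdet : LinearMap.det f = 1 := by
      rw [hf, LinearMap.det_toLin', X.1.2]
    obtain ⟨t, ht, a, ha⟩ := three_dim p hp2 hF (Module.finrank_fin_fun F) (Conc.hermFrm_nondeg hF 3) (fun v => rfl) (su_end hF X) (hiso m) (hiso m')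
      hfd ((Commute.refl f).pow_pow _ _) hY hU hw hdet
    have h1 : orderOf (QuotientGroup.mk X : Cfsg.PSU 3 F q) ∣ t := by
      apply orderOf_dvd_of_pow_eq_one
      rw [su_mk_pow_iff hF (by norm_num)]
      refine ⟨a, ?_⟩
      rw [hpow] at ha
      apply (Matrix.toLinAlgEquiv' (R := F) (n := Fin 3)).injective
      rw [AlgEquiv.commutes]
      exact ha
    rcases ht with rfl | rfl | rfl | rfl
    · exact Or.inl (Or.inl (Or.inl h1))
    · exact Or.inl (Or.inl (Or.inr h1))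
    · exact Or.inl (Or.inr h1)
    · exact Or.inr h1
  · rintro (((h | h) | h) | h)
    · obtain ⟨g, hg⟩ := exists_one hF
      exact mem_range_of_dvd (m := orderOf g) ⟨g, rfl⟩ (h.trans hg)
    · obtain ⟨g, hg1, hg2⟩ := mixed_gen p hF (n := 3) (s := 0) (by norm_num) (dvd_refl (q + 1)) (by norm_num)
      rw [zero_add, pow_one] at hg1
      have hg3 : (q + 1) / Nat.gcd 3 (q + 1) ∣ orderOf g := by
        have h2 : q + 1 ∣ Nat.gcd 3 (q + 1) * orderOf g := by
          rw [← Nat.gcd_mul_right]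
          exact Nat.dvd_gcd hg2 (Dvd.intro _ rfl)
        obtain ⟨v, hv⟩ := hd
        have h3 : (q + 1) / Nat.gcd 3 (q + 1) = v := by
          conv_lhs => rw [show (q + 1) / Nat.gcd 3 (q + 1) = (Nat.gcd 3 (q + 1) * v) / Nat.gcd 3 (q + 1) from by rw [← hv]]
          exact Nat.mul_div_cancel_left _ hd0
        rw [h3]
        apply Nat.dvd_of_mul_dvd_mul_left hd0
        rw [← hv]; exact h2
      refine mem_range_of_dvd (m := orderOf g) ⟨g, rfl⟩ (h.trans ?_)
      refine Nat.Coprime.mul_dvd_of_dvd_of_dvd ?_ hg1 hg3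
      obtain ⟨k, hk, hqk⟩ := Fld.exists_prime_pow hF p
      have h1 : Nat.Coprime p (q + 1) := by
        rw [Nat.Prime.coprime_iff_not_dvd hp.out]
        intro h
        have h2 : p ∣ q := by rw [hqk]; exact dvd_pow_self p hk.ne'
        have h3 := (Nat.dvd_add_right h2).mp h
        exact hp.out.one_lt.ne' (Nat.dvd_one.mp h3)
      exact h1.coprime_dvd_right (Nat.div_dvd_of_dvd hd)
    · obtain ⟨g, hg⟩ := exists_two hF
      exact mem_range_of_dvd (m := orderOf g) ⟨g, rfl⟩ (h.trans hg)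
    · exact mem_range_of_dvd (torus hF (by norm_num)) h

end Cfsg.Agent.H21.GLu
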