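import Mathlib
import Cfsg.Agent.H21_GLu7

/-!
# Unitary groups, VIII: commuting elements of `PSU_n(q)`
-/

set_option autoImplicit false
open Polynomial
open scoped Matrix

namespace Cfsg.Agent.H21.GLu

open Cfsg.Agent.H5 Cfsg.Agent.H21.GLo Cfsg.Agent.H21.GLf

universe u v w

section

variable {F : Type*} [Field F] [Fintype F] {q : ℕ}

theorem kappa_odd {r D : ℕ} [Fact r.Prime] (hD : Odd D) (h : r ∣ q ^ D + 1) : orderOf (-(q : ZMod r)) ∣ D := by
  apply orderOf_dvd_of_pow_eq_one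
  rw [hD.neg_pow]
  have h1 : ((q ^ D + 1 : ℕ) : ZMod r) = 0 := (ZMod.natCast_eq_zero_iff _ _).mpr h
  push_cast at h1
  linear_combination -h1

theorem kappa_even {r D : ℕ} [Fact r.Prime] (hq : 1 ≤ q) (h : r ∣ q ^ (2 * D) - 1) : orderOf (-(q : ZMod r)) ∣ 2 * D := by
  apply orderOf_dvd_of_pow_eq_one
  rw [(even_two_mul D).neg_pow]
  have h1 : ((q ^ (2 * D) - 1 : ℕ) : ZMod r) = 0 := (ZMod.natCast_eq_zero_iff _ _).mpr h
  rw [Nat.cast_sub (Nat.one_le_pow _ _ hq)] at h1
  push_cast at h1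
  linear_combination h1

theorem su_dim (p : ℕ) [hp : Fact p.Prime] [CharP F p] (hF : Fintype.card F = q ^ 2) {r : ℕ} [hr : Fact r.Prime] {w : ℕ} (hwp : ¬ p ∣ w) :
    ∀ (n : ℕ) {V : Type*} [AddCommGroup V] [Module F V] [Module.Finite F V] (A : Frm F (Fld.frob hF) 1 (Herm.tr hF) V) (_ : A.Nondeg) (_ : Herm.IsHerm hF A)
      (Y : Module.End F V) (_ : ∀ u v, A.B (Y u) (Y v) = A.B u v) (_ : Y ^ w = 1) (_ : r ∣ orderOf Y) (_ : Module.finrank F V = n),
      orderOf (-(q : ZMod r)) ≤ n := by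
  intro n
  have hq2 : 2 ≤ q := Fld.one_lt_q hF
  induction n using Nat.strong_induction_on with
  | _ n ih =>
  intro V _ _ _ A hA hh Y hY hYw hrY hn
  have hw0 : 0 < w := by
    rcases Nat.eq_zero_or_pos w with h | h
    · rw [h] at hwp; exact absurd (dvd_zero p) hwp
    · exact h
  have hYpos : 0 < orderOf Y := order_pos_of_pow hw0 hYw
  have hY1 : Y ≠ 1 := by
    rintro rfl
    rw [orderOf_one] at hrY
    exact hr.out.one_lt.ne' (Nat.dvd_one.mp hrY)
  haveI : Nontrivial V := by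
    by_contra hcon
    rw [not_nontrivial_iff_subsingleton] at hcon
    exact hY1 (LinearMap.ext fun x => Subsingleton.elim _ _)
  by_cases hno : ∀ e : Module.End F V, Idem Y e → Adj A e e → e = 0 ∨ e = 1
  · rcases su_struct p hF hA hh hY hYw hwp hno with ⟨D, k, hD, hk, hDk, hYD, -⟩ | ⟨D, k, e, e', hD, hk, hDk, -, -, -, -, -, -, hYD, -⟩
    · have h1 := kappa_odd hD (hrY.trans (orderOf_dvd_of_pow_eq_one hYD))
      have h2 := Nat.le_of_dvd hD.pos h1
      have h4 : D ≤ D * k := Nat.le_mul_of_pos_right D hk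
      omega
    · have h1 := kappa_even (by omega) (hrY.trans (orderOf_dvd_of_pow_eq_one hYD))
      have h2 := Nat.le_of_dvd (by omega) h1
      have h4 : D ≤ D * k := Nat.le_mul_of_pos_right D hk
      omega
  · push Not at hno
    obtain ⟨e, he, hee, he0, he1⟩ := hno
    have hc : Commute e Y := he.commute (Commute.refl Y)
    have he' := one_sub_idem he
    have hee' := one_sub_adj hee
    have hc' : Commute (1 - e) Y := he'.commute (Commute.refl Y)
    obtain ⟨hsum, hp1, hp2⟩ := finrank_parts he.1 he0 he1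
    rcases order_parts he.1 hc hr.out hrY hYpos with h | h
    · have := ih _ (by omega) _ (nondeg_range hA he.1 hee) (hh.restrict _) (rho e Y) (iso_range he.1 hc hY) (rho_pow_one he.1 hc hYw) h rfl
      omega
    · have := ih _ (by omega) _ (nondeg_range hA he'.1 hee') (hh.restrict _) (rho (1 - e) Y) (iso_range he'.1 hc' hY) (rho_pow_one he'.1 hc' hYw) h rfl
      omega

/-- a non-trivial unipotent needs dimension two -/
theorem two_le_of_unip (p : ℕ) [hp : Fact p.Prime] [CharP F p] {V : Type*} [AddCommGroup V] [Module F V] [Module.Finite F V] {U : Module.End F V}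
    (hU1 : U ≠ 1) {T : ℕ} (hU : U ^ (p ^ T) = 1) : 2 ≤ Module.finrank F V := by
  by_contra hcon
  apply hU1
  rcases Nat.lt_or_ge (Module.finrank F V) 1 with h | h
  · have h0 : Module.finrank F V = 0 := by omega
    haveI := Module.finrank_zero_iff.mp h0
    exact LinearMap.ext fun x => Subsingleton.elim _ _
  · have h1 : Module.finrank F V = 1 := by omega
    haveI : Nontrivial V := Module.nontrivial_of_finrank_pos (R := F) (by omega)
    obtain ⟨a, ha⟩ := line_scalar h1 U
    have h2 := unip_scalar p hU (o := 1) (a := a) (by rw [pow_one, ha])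
    rw [ha, h2, map_one]

theorem su_comm (p : ℕ) [hp : Fact p.Prime] [CharP F p] (hF : Fintype.card F = q ^ 2) {r : ℕ} [hr : Fact r.Prime] {w T : ℕ} (hwp : ¬ p ∣ w) :
    ∀ (n : ℕ) {V : Type*} [AddCommGroup V] [Module F V] [Module.Finite F V] (A : Frm F (Fld.frob hF) 1 (Herm.tr hF) V) (_ : A.Nondeg) (_ : Herm.IsHerm hF A)
      (Y U : Module.End F V) (_ : ∀ u v, A.B (Y u) (Y v) = A.B u v) (_ : Y ^ w = 1) (_ : r ∣ orderOf Y)
      (_ : ∀ u v, A.B (U u) (U v) = A.B u v) (_ : U ^ (p ^ T) = 1) (_ : U ≠ 1) (_ : Commute U Y) (_ : Module.finrank F V = n),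
      orderOf (-(q : ZMod r)) + 2 ≤ n ∨ 2 * orderOf (-(q : ZMod r)) ≤ n := by
  intro n
  have hq2 : 2 ≤ q := Fld.one_lt_q hF
  induction n using Nat.strong_induction_on with
  | _ n ih =>
  intro V _ _ _ A hA hh Y U hY hYw hrY hU hUp hU1 hUY hn
  have hw0 : 0 < w := by
    rcases Nat.eq_zero_or_pos w with h | h
    · rw [h] at hwp; exact absurd (dvd_zero p) hwp
    · exact h
  have hYpos : 0 < orderOf Y := order_pos_of_pow hw0 hYw
  haveI : Nontrivial V := by
    by_contra hcon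
    rw [not_nontrivial_iff_subsingleton] at hcon
    exact hU1 (LinearMap.ext fun x => Subsingleton.elim _ _)
  by_cases hno : ∀ e : Module.End F V, Idem Y e → Adj A e e → e = 0 ∨ e = 1
  · right
    have hk2 : ∀ k : ℕ, 1 ≤ k → (U - 1) ^ k = 0 → 2 ≤ k := by
      intro k hk h
      by_contra hcon
      have hk1 : k = 1 := by omega
      rw [hk1, pow_one, sub_eq_zero] at h
      exact hU1 h
    rcases su_struct p hF hA hh hY hYw hwp hno with ⟨D, k, hD, hk, hDk, hYD, -, -, hnil⟩ | ⟨D, k, e, e', hD, hk, hDk, -, -, -, -, -, -, hYD, -, -, -, hnil⟩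
    · have h1 := kappa_odd hD (hrY.trans (orderOf_dvd_of_pow_eq_one hYD))
      have h2 := Nat.le_of_dvd hD.pos h1
      have h3 := hk2 k hk (hnil U hUY ⟨T, hUp⟩)
      have h4 : D * 2 ≤ D * k := Nat.mul_le_mul_left D h3
      omega
    · have h1 := kappa_even (by omega) (hrY.trans (orderOf_dvd_of_pow_eq_one hYD))
      have h2 := Nat.le_of_dvd (by omega) h1
      have h3 := hk2 k hk (hnil U hU hUY ⟨T, hUp⟩)
      have h4 : D * 2 ≤ D * k := Nat.mul_le_mul_left D h3
      omega
  · push Not at hno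
    obtain ⟨e, he, hee, he0, he1⟩ := hno
    have hc : Commute e Y := he.commute (Commute.refl Y)
    have hcU : Commute e U := he.commute hUY.symm
    have he' := one_sub_idem he
    have hee' := one_sub_adj hee
    have hc' : Commute (1 - e) Y := he'.commute (Commute.refl Y)
    have hcU' : Commute (1 - e) U := he'.commute hUY.symm
    obtain ⟨hsum, hp1, hp2⟩ := finrank_parts he.1 he0 he1
    have n1 := nondeg_range hA he.1 hee
    have n2 := nondeg_range hA he'.1 hee'
    have i1 := iso_range he.1 hc hY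
    have i2 := iso_range he'.1 hc' hY
    have j1 := iso_range he.1 hcU hU
    have j2 := iso_range he'.1 hcU' hU
    have w1 := rho_pow_one he.1 hc hYw
    have w2 := rho_pow_one he'.1 hc' hYw
    have u1 := rho_pow_one he.1 hcU hUp
    have u2 := rho_pow_one he'.1 hcU' hUp
    have c1 : Commute (rho e U) (rho e Y) := by
      change rho e U * rho e Y = rho e Y * rho e U
      rw [← rho_mul he.1 hcU hc, ← rho_mul he.1 hc hcU, hUY.eq]
    have c2 : Commute (rho (1 - e) U) (rho (1 - e) Y) := by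
      change rho (1 - e) U * rho (1 - e) Y = rho (1 - e) Y * rho (1 - e) U
      rw [← rho_mul he'.1 hcU' hc', ← rho_mul he'.1 hc' hcU', hUY.eq]
    have hUor : rho e U ≠ 1 ∨ rho (1 - e) U ≠ 1 := by
      by_contra hcon
      push Not at hcon
      apply hU1
      have := pow_eq_one_of_parts he.1 hcU (s := 1) (by rw [pow_one, hcon.1]) (by rw [pow_one, hcon.2])
      rwa [pow_one] at this
    rcases order_parts he.1 hc hr.out hrY hYpos with h1 | h1 <;> rcases hUor with h2 | h2
    · have := ih _ (by omega) _ n1 (hh.restrict _) (rho e Y) (rho e U) i1 w1 h1 j1 u1 h2 c1 rfl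
      omega
    · have k1 := su_dim p hF hwp _ _ n1 (hh.restrict _) (rho e Y) i1 w1 h1 rfl
      have k2 := two_le_of_unip p h2 u2
      omega
    · have k1 := su_dim p hF hwp _ _ n2 (hh.restrict _) (rho (1 - e) Y) i2 w2 h1 rfl
      have k2 := two_le_of_unip p h2 u1
      omega
    · have := ih _ (by omega) _ n2 (hh.restrict _) (rho (1 - e) Y) (rho (1 - e) U) i2 w2 h1 j2 u2 h2 c2 rfl
      omega

theorem dvd_SU (hF : Fintype.card F = q ^ 2) {r n : ℕ} [hr : Fact r.Prime] (hn : 2 ≤ n)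
    (h : r ∣ q ∨ (2 ≤ orderOf (-(q : ZMod r)) ∧ orderOf (-(q : ZMod r)) ≤ n) ∨ r ∣ q + 1) : r ∣ Nat.card (Cfsg.SU n F q) := by
  have hq2 : 2 ≤ q := Fld.one_lt_q hF
  have h1 := Unit.card_SU_mul (F := F) hF (n := n) (by omega)
  rw [Unit.card_GU hF] at h1
  unfold Herm.guOrd at h1
  obtain ⟨n', rfl⟩ : ∃ n', n = n' + 1 := ⟨n - 1, by omega⟩
  rw [Finset.prod_range_succ'] at h1
  have h0 : (if Even 0 then q ^ (0 + 1) + 1 else q ^ (0 + 1) - 1) = q + 1 := by
    rw [if_pos (by decide)]; ring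
  rw [h0] at h1
  have h2 : Nat.card (Cfsg.SU (n' + 1) F q) = q ^ ((n' + 1) * (n' + 1 - 1) / 2) * ∏ i ∈ Finset.range n', (if Even (i + 1) then q ^ (i + 1 + 1) + 1 else q ^ (i + 1 + 1) - 1) := by
    apply Nat.eq_of_mul_eq_mul_left (show 0 < q + 1 by omega)
    rw [h1]; ring
  rw [h2]
  have key : ∀ i, 2 ≤ i → i ≤ n' + 1 → (-(q : ZMod r)) ^ i = 1 →
      r ∣ ∏ i ∈ Finset.range n', (if Even (i + 1) then q ^ (i + 1 + 1) + 1 else q ^ (i + 1 + 1) - 1) := by
    intro i hi1 hi2 hi
    obtain ⟨j, rfl⟩ : ∃ j, i = j + 1 + 1 := ⟨i - 2, by omega⟩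
    refine dvd_trans ?_ (Finset.dvd_prod_of_mem _ (Finset.mem_range.mpr (show j < n' by omega)))
    split_ifs with he
    · rw [← ZMod.natCast_eq_zero_iff]
      push_cast
      rw [(he.add_one).neg_pow] at hi
      linear_combination -hi
    · rw [← ZMod.natCast_eq_zero_iff, Nat.cast_sub (Nat.one_le_pow _ _ (by omega))]
      push_cast
      rw [Nat.not_even_iff_odd] at he
      rw [(he.add_one).neg_pow] at hi
      linear_combination hi
  rcases h with h | ⟨h3, h4⟩ | h
  · apply Dvd.dvd.mul_right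
    apply h.trans
    apply dvd_pow_self
    have h3 : 2 ≤ (n' + 1) * (n' + 1 - 1) := by
      rw [Nat.add_sub_cancel]
      have : 1 ≤ n' := by omega
      nlinarith
    have := Nat.div_le_div_right (c := 2) h3
    omega
  · exact (key _ h3 h4 (pow_orderOf_eq_one _)).mul_left _
  · apply Dvd.dvd.mul_left
    apply key 2 (le_refl 2) hn
    rw [(show Even 2 by decide).neg_pow]
    have h1 : ((q + 1 : ℕ) : ZMod r) = 0 := (ZMod.natCast_eq_zero_iff _ _).mpr h
    push_cast at h1
    linear_combination ((q : ZMod r) - 1) * h1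

omit [Fintype F] in
theorem mat_pow {n : ℕ} (X : Cfsg.SU n F q) (s : ℕ) : Unit.mat (X ^ s) = (Unit.mat X) ^ s := rfl

/-- `l`-elements lift to `l`-elements -/
theorem exists_lift {G : Type*} [Group G] [Finite G] (N : Subgroup G) [N.Normal] {x : G ⧸ N} {l : ℕ} (hl : l.Prime) (hx : orderOf x = l) :
    ∃ X : G, QuotientGroup.mk X = x ∧ ∃ S, X ^ (l ^ S) = 1 := by
  obtain ⟨X, rfl⟩ := QuotientGroup.mk_surjective x
  obtain ⟨S, w, hw, ho⟩ := Nat.exists_eq_pow_mul_and_not_dvd (orderOf_pos X).ne' l hl.ne_one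
  have hcop : Nat.Coprime l w := (Nat.Prime.coprime_iff_not_dvd hl).mpr hw
  obtain ⟨m, m', hd, h1, h2⟩ := exists_dec (f := X) (P := l ^ S) (w := w) (by rw [← ho, pow_orderOf_eq_one]) (Nat.Coprime.pow_left S hcop)
  refine ⟨X ^ m', ?_, S, h2⟩
  have h3 : (QuotientGroup.mk (X ^ m) : G ⧸ N) = 1 := by
    rw [← orderOf_eq_one_iff]
    apply Nat.dvd_one.mp
    have h4 : Nat.gcd l w = 1 := hcop
    rw [← h4]
    apply Nat.dvd_gcd
    · rw [QuotientGroup.mk_pow, ← hx]
      exact orderOf_pow_dvd m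
    · apply orderOf_dvd_of_pow_eq_one
      rw [← QuotientGroup.mk_pow, h1]; rfl
  calc (QuotientGroup.mk (X ^ m') : G ⧸ N) = QuotientGroup.mk (X ^ m) * QuotientGroup.mk (X ^ m') := by rw [h3, one_mul]
    _ = QuotientGroup.mk X := by rw [← QuotientGroup.mk_mul, hd]

theorem commuting (p : ℕ) [hp : Fact p.Prime] [CharP F p] (m : ℕ) (hm : 4 ≤ m) (hF : Fintype.card F = q ^ 2)
    (a b : Cfsg.PSU m F q) (ha : orderOf a = p) (hab : Commute a b) :
    (orderOf b).primeFactors ⊆ (Nat.card ↥(Cfsg.SU (m - 2) F q)).primeFactors := by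
  have hq2 : 2 ≤ q := Fld.one_lt_q hF
  haveI : Finite (Cfsg.SU m F q) := inferInstance
  haveI : Finite (Cfsg.SU (m - 2) F q) := inferInstance
  haveI : Finite (Cfsg.PSU m F q) := inferInstance
  obtain ⟨k, hk, hqk⟩ := Fld.exists_prime_pow hF p
  intro r hr
  rw [Nat.mem_primeFactors] at hr ⊢
  obtain ⟨hr, hrb, -⟩ := hr
  haveI : Fact r.Prime := ⟨hr⟩
  refine ⟨hr, ?_, Nat.card_pos.ne'⟩
  apply dvd_SU hF (by omega)
  by_cases hrp : r = p
  · left; rw [hrp, hqk]; exact dvd_pow_self p hk.ne'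
  by_cases hrq : r ∣ q + 1
  · right; right; exact hrq
  right; left
  have hrq' : ¬ r ∣ q := by
    intro h
    rw [hqk] at h
    exact hrp ((Nat.prime_dvd_prime_iff_eq hr hp.out).mp (hr.dvd_of_dvd_pow h))
  have hne : (-(q : ZMod r)) ≠ 0 := by
    rw [neg_ne_zero, Ne, ZMod.natCast_eq_zero_iff]; exact hrq'
  have hκ0 : 0 < orderOf (-(q : ZMod r)) := by
    apply order_pos_of_pow (w := r - 1) (by have := hr.two_le; omega)
    exact ZMod.pow_card_sub_one_eq_one hne
  have hκ1 : orderOf (-(q : ZMod r)) ≠ 1 := by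
    rw [Ne, orderOf_eq_one_iff]
    intro h
    apply hrq
    rw [← ZMod.natCast_eq_zero_iff]
    push_cast
    linear_combination -h
  -- the elements
  obtain ⟨c, hc⟩ := hrb
  have hb0 := orderOf_pos b
  have hc0 : c ≠ 0 := by rintro rfl; rw [mul_zero] at hc; omega
  have hb' : orderOf (b ^ c) = r := by
    rw [orderOf_pow' _ hc0, hc, Nat.gcd_eq_right (Dvd.intro_left _ rfl), Nat.mul_div_cancel _ (Nat.pos_of_ne_zero hc0)]
  obtain ⟨U, hU, T, hUT⟩ := exists_lift (Subgroup.center (Cfsg.SU m F q)) hp.out ha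
  obtain ⟨Y, hY, S, hYS⟩ := exists_lift (Subgroup.center (Cfsg.SU m F q)) hr hb'
  have hcomm : U * Y = Y * U := by
    have h1 : Commute (QuotientGroup.mk U : Cfsg.PSU m F q) (QuotientGroup.mk Y) := by rw [hU, hY]; exact hab.pow_right c
    obtain ⟨z, hz⟩ : ∃ z : Cfsg.SU m F q, z = U * Y * (Y * U)⁻¹ := ⟨_, rfl⟩
    have hzc : z ∈ Subgroup.center (Cfsg.SU m F q) := by
      rw [← QuotientGroup.eq_one_iff, hz, QuotientGroup.mk_mul, QuotientGroup.mk_inv, mul_inv_eq_one, QuotientGroup.mk_mul, QuotientGroup.mk_mul, h1.eq]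
    have hz1 : U * Y = z * (Y * U) := by rw [hz]; group
    have hzcomm : ∀ g, g * z = z * g := Subgroup.mem_center_iff.mp hzc
    have hpow : ∀ j : ℕ, U ^ j * Y = z ^ j * (Y * U ^ j) := by
      intro j
      induction j with
      | zero => rw [pow_zero, pow_zero, one_mul, one_mul, mul_one]
      | succ j ih =>
        have hzj : z ^ j * U = U * z ^ j := ((show Commute z U from (hzcomm U).symm).pow_left j).eq
        calc U ^ (j + 1) * Y = U * (U ^ j * Y) := by rw [pow_succ', mul_assoc]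
          _ = U * (z ^ j * (Y * U ^ j)) := by rw [ih]
          _ = (z ^ j * U) * (Y * U ^ j) := by rw [hzj, mul_assoc]
          _ = z ^ j * (U * Y) * U ^ j := by simp only [mul_assoc]
          _ = z ^ j * (z * (Y * U)) * U ^ j := by rw [hz1]
          _ = z ^ (j + 1) * (Y * U ^ (j + 1)) := by rw [pow_succ, pow_succ']; simp only [mul_assoc]
    have h2 := hpow (p ^ T)
    rw [hUT, one_mul, mul_one] at h2
    have h3 : z ^ (p ^ T) = 1 := by
      have : z ^ (p ^ T) * Y = 1 * Y := by rw [← h2, one_mul]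
      exact mul_right_cancel this
    obtain ⟨x, hx⟩ := Unit.center_scalar hF (by omega) z hzc
    haveI : Nonempty (Fin m) := ⟨⟨0, by omega⟩⟩
    have h4 : x ^ (p ^ T) = 1 := by
      apply (algebraMap F (Matrix (Fin m) (Fin m) F)).injective
      have h5 := congrArg Unit.mat h3
      rw [mat_pow, hx, ← Algebra.algebraMap_eq_smul_one, ← map_pow] at h5
      rw [h5, map_one]; rfl
    have h5 : x = 1 := eq_one_of_coprime (m := p ^ T) (pow_ne_zero _ hp.out.ne_zero) h4 (Nat.Coprime.pow_left _ (coprime_p p))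
    have h6 : z = 1 := by
      apply Unit.SU_ext
      intro v
      rw [hx, h5, one_smul]; rfl
    rw [hz1, h6, one_mul]
  have hU1 : U ≠ 1 := by
    rintro rfl
    have : a = 1 := by rw [← hU]; rfl
    rw [this, orderOf_one] at ha
    exact hp.out.one_lt.ne ha
  have hY1 : Y ≠ 1 := by
    rintro rfl
    have : b ^ c = 1 := by rw [← hY]; rfl
    rw [this, orderOf_one] at hb'
    exact hr.one_lt.ne hb'
  have hinj : ∀ X : Cfsg.SU m F q, Matrix.toLin' (Unit.mat X) = 1 → X = 1 := by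
    intro X hX
    apply Unit.SU_ext
    intro v
    have := LinearMap.congr_fun hX v
    rw [Matrix.toLin'_apply] at this
    rw [this]
    change v = (1 : Matrix (Fin m) (Fin m) F) *ᵥ v
    rw [Matrix.one_mulVec]
  have hpw : ∀ (X : Cfsg.SU m F q) (s : ℕ), (Matrix.toLin' (Unit.mat X)) ^ s = Matrix.toLin' (Unit.mat (X ^ s)) := fun X s => (map_pow (Matrix.toLinAlgEquiv' (R := F) (n := Fin m)) (Unit.mat X) s).symm
  have hone : Matrix.toLin' (Unit.mat (1 : Cfsg.SU m F q)) = 1 := Matrix.toLin'_one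
  have hrY : r ∣ orderOf (Matrix.toLin' (Unit.mat Y)) := by
    obtain ⟨j, -, hj⟩ := (Nat.dvd_prime_pow hr).mp (orderOf_dvd_of_pow_eq_one (show (Matrix.toLin' (Unit.mat Y)) ^ (r ^ S) = 1 by rw [hpw, hYS, hone]))
    rw [hj]
    apply dvd_pow_self
    rintro rfl
    rw [pow_zero, orderOf_eq_one_iff] at hj
    exact hY1 (hinj Y hj)
  have hfin := su_comm p hF (r := r) (w := r ^ S) (T := T) (by
      intro h
      exact hrp ((Nat.prime_dvd_prime_iff_eq hp.out hr).mp (hp.out.dvd_of_dvd_pow h)).symm) m (Conc.hermFrm hF m) (Conc.hermFrm_nondeg hF m) (fun v => rfl)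
    (Matrix.toLin' (Unit.mat Y)) (Matrix.toLin' (Unit.mat U)) (su_end hF Y) (by rw [hpw, hYS, hone]) hrY (su_end hF U) (by rw [hpw, hUT, hone])
    (fun h => hU1 (hinj U h)) (by
      have h1 : Commute (Unit.mat U) (Unit.mat Y) := congrArg Unit.mat hcomm
      exact h1.map (Matrix.toLinAlgEquiv' (R := F) (n := Fin m))) (Module.finrank_fin_fun F)
  omega

end

end Cfsg.Agent.H21.GLu
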