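import Mathlib
import Cfsg.Agent.H21_P17e

set_option autoImplicit false

namespace Cfsg.Agent.H21.P17

open MulAction OnePoint

variable {G : Type*} [Group G] [Finite G]

theorem exists_hom (h18 : Nat.card (Sylow 17 G) = 18) : ∃ ψ : G →* Equiv.Perm X, Hyp ψ.range ∧
    ∀ x, x ∈ ψ.ker ↔ ∀ P : Sylow 17 G, x • P = P := by
  classical
  set P : Sylow 17 G := default with hPdef
  -- find a, Q
  obtain ⟨Q, hQ⟩ : ∃ Q : Sylow 17 G, Q ≠ P := by
    haveI : Nontrivial (Sylow 17 G) := by
      rw [← Finite.one_lt_card_iff_nontrivial, h18]; norm_num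
    exact exists_ne P
  obtain ⟨a, haP, haQ⟩ : ∃ a ∈ P, a • Q ≠ Q := by
    by_contra hcon
    push Not at hcon
    apply hQ
    have h8 := P.isPGroup'.sylow_mem_fixedPoints_iff (Q := Q)
    have h10 : (P : Subgroup G) ≤ Q := h8.mp (fun g => hcon g g.2)
    exact Sylow.ext (P.is_maximal' Q.isPGroup' h10)
  have haP' : a • P = P := by
    rw [Sylow.smul_eq_iff_mem_normalizer]
    exact Subgroup.le_normalizer haP
  -- the image of P
  let φ : G →* Equiv.Perm (Sylow 17 G) := MulAction.toPermHom G (Sylow 17 G)
  have hφ : ∀ (g : G) (R : Sylow 17 G), φ g R = g • R := fun _ _ => rfl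
  have hcardP : Nat.card ((P : Subgroup G).map φ) = 17 := by
    have h1 : IsPGroup 17 ((P : Subgroup G).map φ) := P.isPGroup'.map φ
    obtain ⟨k, hk⟩ := IsPGroup.iff_card.mp h1
    have h2 : Nat.card ((P : Subgroup G).map φ) ∣ Nat.factorial 18 := by
      have h3 := ((P : Subgroup G).map φ).card_subgroup_dvd_card
      haveI := Fintype.ofFinite (Sylow 17 G)
      rwa [Nat.card_perm, h18] at h3
    have hk0 : k ≠ 0 := by
      intro h0
      rw [h0, pow_zero] at hk
      have h4 := Subgroup.card_eq_one.mp hk
      have h5 : φ a ∈ ((P : Subgroup G).map φ) := Subgroup.mem_map_of_mem φ haP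
      rw [h4, Subgroup.mem_bot] at h5
      apply haQ
      rw [← hφ, h5]; rfl
    have hk2 : k < 2 := by
      by_contra h2k
      have h3 : 17 ^ 2 ∣ Nat.card ((P : Subgroup G).map φ) := by
        rw [hk]; exact pow_dvd_pow _ (by omega)
      have h4 := h3.trans h2
      revert h4; decide
    have : k = 1 := by omega
    rw [hk, this, pow_one]
  have hφa1 : φ a ≠ 1 := by
    intro h5
    apply haQ
    rw [← hφ, h5]; rfl
  have hgen : ∀ x ∈ P, ∃ n : ℕ, φ x = φ a ^ n := by
    intro x hx
    have h6 : (⟨φ x, Subgroup.mem_map_of_mem φ hx⟩ : (P : Subgroup G).map φ) ∈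
        Subgroup.zpowers (⟨φ a, Subgroup.mem_map_of_mem φ haP⟩ : (P : Subgroup G).map φ) := by
      apply mem_zpowers_of_prime_card hcardP
      intro h7
      exact hφa1 (congrArg Subtype.val h7)
    haveI : Finite ((P : Subgroup G).map φ) := inferInstance
    rw [← mem_powers_iff_mem_zpowers] at h6
    obtain ⟨n, hn⟩ := h6
    refine ⟨n, ?_⟩
    have := congrArg Subtype.val hn
    simpa using this.symm
  have h17 : φ a ^ 17 = 1 := by
    have h6 : (⟨φ a, Subgroup.mem_map_of_mem φ haP⟩ : (P : Subgroup G).map φ) ^ (Nat.card ((P : Subgroup G).map φ)) = 1 :=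
      pow_card_eq_one'
    have h7 := congrArg Subtype.val h6
    rw [hcardP] at h7
    exact h7
  have hpow : ∀ (n : ℕ) (R : Sylow 17 G), (φ a ^ n) R = a ^ n • R := by
    intro n R; rw [← map_pow]; rfl
  -- injectivity of n ↦ a^n Q
  have hinj : ∀ m n : ℕ, (φ a ^ m) Q = (φ a ^ n) Q → (m : K) = (n : K) := by
    have h0 : ∀ n : ℕ, (φ a ^ n) Q = Q → (n : K) = 0 := by
      intro n hn
      by_contra hne
      have hcop : Nat.Coprime n 17 := by
        rw [Nat.coprime_comm, Nat.Prime.coprime_iff_not_dvd (by norm_num)]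
        intro hd
        exact hne ((ZMod.natCast_eq_zero_iff _ _).mpr hd)
      apply haQ
      have h1 : ∀ k : ℕ, (φ a ^ (n * k)) Q = Q := by
        intro k
        induction k with
        | zero => simp
        | succ k ih => rw [Nat.mul_succ, pow_add, Equiv.Perm.mul_apply, hn, ih]
      obtain ⟨k, hk⟩ := Nat.exists_mul_mod_eq_one_of_coprime hcop (by norm_num : 1 < 17)
      have h2 := h1 k
      have h3 : φ a ^ (n * k) = φ a := by
        rw [← Nat.div_add_mod (n * k) 17, hk.2, pow_add, pow_mul, h17, one_pow, one_mul, pow_one]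
      rw [h3] at h2
      exact h2
    have h1 : ∀ m n : ℕ, m ≤ n → (φ a ^ m) Q = (φ a ^ n) Q → (m : K) = (n : K) := by
      intro m n hmn h
      obtain ⟨d, rfl⟩ := Nat.exists_eq_add_of_le hmn
      rw [pow_add, Equiv.Perm.mul_apply] at h
      have h3 := h0 d ((φ a ^ m).injective h).symm
      push_cast
      rw [h3, add_zero]
    intro m n h
    rcases le_total m n with hmn | hmn
    · exact h1 m n hmn h
    · exact (h1 n m hmn h.symm).symm
  have hmod : ∀ m n : ℕ, (m : K) = (n : K) → (φ a ^ m) = (φ a ^ n) := by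
    intro m n h
    rw [ZMod.natCast_eq_natCast_iff] at h
    have h1 : ∀ l : ℕ, φ a ^ l = φ a ^ (l % 17) := by
      intro l
      conv_lhs => rw [← Nat.div_add_mod l 17, pow_add, pow_mul, h17, one_pow, one_mul]
    rw [h1 m, h1 n, h]
  -- the bijection
  let e0 : X → Sylow 17 G := fun x => OnePoint.rec P (fun k : K => (φ a ^ k.val) Q) x
  have he_inf : e0 ∞ = P := rfl
  have he_coe : ∀ k : K, e0 (k : X) = (φ a ^ k.val) Q := fun _ => rfl
  have hne : ∀ n : ℕ, (φ a ^ n) Q ≠ P := by
    intro n h
    have h1 : (φ a ^ n) P = P := by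
      induction n with
      | zero => rfl
      | succ n _ =>
        clear h
        have : ∀ m : ℕ, (φ a ^ m) P = P := by
          intro m
          induction m with
          | zero => rfl
          | succ m ih => rw [pow_succ, Equiv.Perm.mul_apply, hφ, haP', ih]
        exact this _
    exact hQ ((φ a ^ n).injective (h.trans h1.symm))
  have hinj0 : Function.Injective e0 := by
    intro x y hxy
    induction x using OnePoint.rec with
    | infty =>
      induction y using OnePoint.rec with
      | infty => rfl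
      | coe y => exact absurd hxy.symm (hne _)
    | coe x =>
      induction y using OnePoint.rec with
      | infty => exact absurd hxy (hne _)
      | coe y =>
        rw [he_coe, he_coe] at hxy
        have := hinj _ _ hxy
        rw [ZMod.natCast_zmod_val, ZMod.natCast_zmod_val] at this
        rw [this]
  have hbij : Function.Bijective e0 := (Nat.bijective_iff_injective_and_card _).mpr ⟨hinj0, by rw [card_X, h18]⟩
  let e : X ≃ Sylow 17 G := Equiv.ofBijective e0 hbij
  have he : ∀ x, e x = e0 x := fun _ => rfl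
  let ψ : G →* Equiv.Perm X := (e.symm.permCongrHom.toMonoidHom).comp φ
  have hψ : ∀ g x, ψ g x = e.symm (g • e x) := fun g x => rfl
  have hψ' : ∀ g x, e (ψ g x) = g • e x := fun g x => by rw [hψ, Equiv.apply_symm_apply]
  have hψa : ψ a = aff 1 1 := by
    ext1 x
    apply e.injective
    rw [hψ']
    induction x using OnePoint.rec with
    | infty => rw [aff_infty, he, he_inf, haP']
    | coe x =>
      rw [aff_coe, he, he, he_coe, he_coe, ← hφ, ← Equiv.Perm.mul_apply, ← pow_succ']
      rw [hmod (x.val + 1) (((1 : Kˣ) * x + 1 : K).val)]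
      push_cast
      rw [ZMod.natCast_zmod_val, ZMod.natCast_zmod_val, one_mul]
  have haff : ∀ n : ℕ, (aff 1 1) ^ n = aff 1 (n : K) := by
    intro n
    induction n with
    | zero => rw [pow_zero, Nat.cast_zero, aff_one]
    | succ n ih =>
      rw [pow_succ', ih, aff_mul, one_mul]
      congr 1
      rw [Units.val_one]; push_cast; ring
  refine ⟨ψ, ⟨⟨a, hψa⟩, ?_, ?_⟩, ?_⟩
  · rintro _ ⟨g, rfl⟩ hg
    have hgP : g • P = P := by
      have := hψ' g ∞
      rw [hg, he, he_inf] at this
      exact this.symm
    -- conj of a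
    have h5 := Sylow.smul_eq_iff_mem_normalizer.mp hgP
    have h6 : g * a * g⁻¹ ∈ P := (Subgroup.mem_normalizer_iff.mp h5 a).mp haP
    obtain ⟨k, hk⟩ := hgen _ h6
    have hk' : ψ (g * a * g⁻¹) = aff 1 (k : K) := by
      change e.symm.permCongrHom.toMonoidHom (φ (g * a * g⁻¹)) = _
      rw [hk, map_pow]
      change (ψ a) ^ k = _
      rw [hψa, haff]
    have hcomm : ψ g * aff 1 1 = aff 1 (k : K) * ψ g := by
      rw [← hψa, ← hk', ← map_mul, ← map_mul]
      congr 1
      group
    -- b
    have hg0 : ψ g ((0 : K) : X) ≠ ∞ := by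
      intro h0
      rw [← hg] at h0
      exact OnePoint.coe_ne_infty _ ((ψ g).injective h0)
    obtain ⟨b, hb⟩ := OnePoint.ne_infty_iff_exists.mp hg0
    have hn : ∀ n : ℕ, ψ g (((n : K)) : X) = ((k * n + b : K) : X) := by
      intro n
      induction n with
      | zero => rw [Nat.cast_zero, ← hb]; congr 1; simp
      | succ n ih =>
        have h1 := congrArg (fun f : Equiv.Perm X => f ((n : K) : X)) hcomm
        simp only [Equiv.Perm.mul_apply] at h1
        rw [aff_coe, ih, aff_coe] at h1
        have e1 : ((n + 1 : ℕ) : K) = ((1 : Kˣ) : K) * (n : K) + 1 := by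
          rw [Units.val_one]; push_cast; ring
        rw [e1, h1]
        congr 1
        rw [Units.val_one]; ring
    have hk0 : (k : K) ≠ 0 := by
      intro h0
      have h1 := hn 0
      have h2 := hn 1
      rw [h0, zero_mul] at h1 h2
      have h3 := (ψ g).injective (h1.trans h2.symm)
      have h4 : ((0 : ℕ) : K) = ((1 : ℕ) : K) := OnePoint.coe_injective h3
      revert h4; decide
    refine ⟨Units.mk0 (k : K) hk0, b, ?_⟩
    ext1 x
    induction x using OnePoint.rec with
    | infty => rw [hg, aff_infty]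
    | coe x =>
      have := hn x.val
      rw [ZMod.natCast_zmod_val] at this
      rw [this, aff_coe]; rfl
  · obtain ⟨g, hg⟩ := MulAction.exists_smul_eq G P Q
    refine ⟨ψ g, ⟨g, rfl⟩, ?_⟩
    intro h
    have := hψ' g ∞
    rw [h, he, he_inf, hg] at this
    exact hQ this.symm
  · intro x
    rw [MonoidHom.mem_ker]
    constructor
    · intro h P'
      have := hψ' x (e.symm P')
      rw [h, Equiv.apply_symm_apply] at this
      simpa using this.symm
    · intro h
      ext1 y
      apply e.injective
      rw [hψ', h]; rfl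

end Cfsg.Agent.H21.P17
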