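import Cfsg.Agent.H22_Gen

/-!
An averaging identity: if `b` of prime order acts without fixed points on an abelian group `Z` and both act on an
abelian group `V` of coprime order, then `[V, Z]` is generated by the `Z`-conjugates of `C_V(b)`.
-/

set_option autoImplicit false

namespace Cfsg.Agent.H22.Avg

open Subgroup
open scoped commutatorElement

variable {X : Type*} [Group X]

theorem pow_fix {Z : Subgroup X} {p : ℕ} [hp : Fact p.Prime] {b : X} (hb : b ^ p = 1)
    (hfix : ∀ z ∈ Z, b * z = z * b → z = 1) {i : ℕ} (hi : i ∈ Finset.Ico 1 p) (z : X) (hz : z ∈ Z)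
    (h : b ^ i * z = z * b ^ i) : z = 1 := by
  rw [Finset.mem_Ico] at hi
  apply hfix z hz
  have hcop : Nat.Coprime i p := (Nat.coprime_of_lt_prime (by omega) hi.2 hp.out).symm
  obtain ⟨k, _, hk⟩ := Nat.exists_mul_mod_eq_one_of_coprime hcop hp.out.one_lt
  have h1 : b ^ (i * k) = b := by
    conv_rhs => rw [← pow_one b]
    rw [← Nat.div_add_mod (i * k) p, hk, pow_add, pow_mul, hb, one_pow, one_mul]
  have h2 : Commute ((b ^ i) ^ k) z := Commute.pow_left h k
  rw [← pow_mul, h1] at h2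
  exact h2

theorem avg {R : Type*} [Ring R] (ρ : X →* R) (Z : Subgroup X) [Fintype Z]
    {p : ℕ} [hp : Fact p.Prime] {b : X} (hb : b ^ p = 1) (hbZ : b ∈ normalizer (Z : Set X))
    (hfix : ∀ z ∈ Z, b * z = z * b → z = 1) :
    ∑ z : Z, ρ (z : X)⁻¹ * (∑ i ∈ Finset.range p, ρ b ^ i) * ρ (z : X) =
      (Fintype.card Z : R) + (∑ i ∈ Finset.Ico 1 p, ρ b ^ i) * ∑ z : Z, ρ (z : X) := by
  have h1 : ∀ i ∈ Finset.Ico 1 p, ∑ z : Z, ρ (z : X)⁻¹ * ρ b ^ i * ρ (z : X) = ρ b ^ i * ∑ z : Z, ρ (z : X) := by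
    intro i hi
    have hbi : ∀ i : ℕ, b ^ i ∈ normalizer (Z : Set X) := fun i => (normalizer (Z : Set X)).pow_mem hbZ i
    let e : Z → Z := fun z => ⟨(b ^ i)⁻¹ * (z : X)⁻¹ * b ^ i * z, Z.mul_mem (by
      have h2 := (Subgroup.mem_normalizer_iff.mp ((normalizer (Z : Set X)).inv_mem (hbi i)) ((z : X)⁻¹)).mp (Z.inv_mem z.2)
      rwa [inv_inv] at h2) z.2⟩
    have he : Function.Bijective e := by
      rw [Fintype.bijective_iff_injective_and_card]
      refine ⟨?_, rfl⟩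
      intro x y hxy
      have h2 : (b ^ i)⁻¹ * (x : X)⁻¹ * b ^ i * x = (b ^ i)⁻¹ * (y : X)⁻¹ * b ^ i * y := congrArg Subtype.val hxy
      have h3 : (x : X)⁻¹ * b ^ i * x = (y : X)⁻¹ * b ^ i * y := by
        have := congrArg (fun t => b ^ i * t) h2
        simpa only [mul_assoc, mul_inv_cancel_left] using this
      have h4 : b ^ i * ((x : X) * (y : X)⁻¹) = ((x : X) * (y : X)⁻¹) * b ^ i := by
        calc b ^ i * ((x : X) * (y : X)⁻¹) = (x : X) * ((x : X)⁻¹ * b ^ i * x) * (y : X)⁻¹ := by group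
          _ = (x : X) * ((y : X)⁻¹ * b ^ i * y) * (y : X)⁻¹ := by rw [h3]
          _ = ((x : X) * (y : X)⁻¹) * b ^ i := by group
      have h5 := pow_fix hb hfix hi _ (Z.mul_mem x.2 (Z.inv_mem y.2)) h4
      exact Subtype.ext (mul_inv_eq_one.mp h5)
    rw [Finset.mul_sum, ← Fintype.sum_bijective e he (fun z => ρ (z : X)⁻¹ * ρ b ^ i * ρ (z : X)) (fun z => ρ b ^ i * ρ (z : X))]
    intro z
    show ρ (z : X)⁻¹ * ρ b ^ i * ρ (z : X) = ρ b ^ i * ρ ((b ^ i)⁻¹ * (z : X)⁻¹ * b ^ i * z)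
    rw [← map_pow, ← map_mul, ← map_mul, ← map_mul]
    congr 1
    group
  have h2 : Finset.range p = insert 0 (Finset.Ico 1 p) := by
    ext i
    simp only [Finset.mem_range, Finset.mem_insert, Finset.mem_Ico]
    have := hp.out.pos
    omega
  calc ∑ z : Z, ρ (z : X)⁻¹ * (∑ i ∈ Finset.range p, ρ b ^ i) * ρ (z : X)
      = ∑ z : Z, ∑ i ∈ Finset.range p, ρ (z : X)⁻¹ * ρ b ^ i * ρ (z : X) := by
        apply Finset.sum_congr rfl
        intro z _
        rw [Finset.mul_sum, Finset.sum_mul]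
    _ = ∑ i ∈ Finset.range p, ∑ z : Z, ρ (z : X)⁻¹ * ρ b ^ i * ρ (z : X) := Finset.sum_comm
    _ = _ := by
      rw [h2, Finset.sum_insert (by simp), Finset.sum_congr rfl h1, ← Finset.sum_mul]
      congr 1
      simp only [pow_zero, mul_one]
      have : ∀ z : Z, ρ (z : X)⁻¹ * ρ (z : X) = 1 := by
        intro z; rw [← map_mul, inv_mul_cancel, map_one]
      rw [Finset.sum_congr rfl (fun z _ => this z)]
      simp

variable [Finite X]

omit [Finite X] in
theorem eq_one_of_pow {V : Subgroup X} {n : ℕ} (hcop : n.Coprime (Nat.card V)) {v : X} (hv : v ∈ V) (h : v ^ n = 1) : v = 1 := by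
  rw [← orderOf_eq_one_iff]
  have h1 : orderOf v ∣ n := orderOf_dvd_of_pow_eq_one h
  have h2 : orderOf v ∣ Nat.card V := Subgroup.orderOf_dvd_natCard V hv
  exact Nat.eq_one_of_dvd_coprimes hcop h1 h2

/-- if `y` centralizes `Z` and `C_V(b)`, where `b` acts fixed point freely on the abelian group `Z`, then `y` centralizes `[V,Z]` -/
theorem centralizes (V : Subgroup X) [V.Normal] (hV : ∀ u ∈ V, ∀ v ∈ V, u * v = v * u)
    (Z : Subgroup X) (hcop : (Nat.card Z).Coprime (Nat.card V))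
    {p : ℕ} [hp : Fact p.Prime] {b : X} (hb : b ^ p = 1) (hbZ : b ∈ normalizer (Z : Set X))
    (hfix : ∀ z ∈ Z, b * z = z * b → z = 1) {y : X} (hyZ : ∀ z ∈ Z, y * z = z * y)
    (hy : ∀ v ∈ V, v * b = b * v → y * v = v * y) : ∀ v ∈ ⁅V, Z⁆, y * v = v * y := by
  classical
  have : Fintype Z := Fintype.ofFinite Z
  let _ : CommGroup V := { (inferInstance : Group V) with mul_comm := fun a b => Subtype.ext (hV a a.2 b b.2) }
  let ρ : X →* AddMonoid.End (Additive V) := (Gen.toEnd V).comp (MulAut.conjNormal (H := V))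
  have hρ : ∀ (x : X) (v : V), ((ρ x (Additive.ofMul v)).toMul : X) = x * v * x⁻¹ := by
    intro x v
    show ((MulAut.conjNormal x v : V) : X) = x * v * x⁻¹
    rw [MulAut.conjNormal_apply]
  set S : AddMonoid.End (Additive V) := ∑ z : Z, ρ (z : X) with hS
  have hSz : ∀ z : Z, S * ρ (z : X) = S := by
    intro z
    rw [hS, Finset.sum_mul]
    have h1 : ∀ w : Z, ρ (w : X) * ρ (z : X) = ρ ((w * z : Z) : X) := by
      intro w; rw [← map_mul]; rfl
    rw [Finset.sum_congr rfl (fun w _ => h1 w)]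
    exact Fintype.sum_bijective (fun w : Z => w * z) (Group.mulRight_bijective z) _ _ (fun w => rfl)
  -- the kernel of `S`
  let L : Subgroup X :=
    { carrier := {v | ∃ hv : v ∈ V, S (Additive.ofMul (⟨v, hv⟩ : V)) = 0}
      one_mem' := ⟨V.one_mem, map_zero S⟩
      mul_mem' := by
        rintro u v ⟨hu, hu2⟩ ⟨hv, hv2⟩
        refine ⟨V.mul_mem hu hv, ?_⟩
        have : (Additive.ofMul (⟨u * v, V.mul_mem hu hv⟩ : V)) = Additive.ofMul (⟨u, hu⟩ : V) + Additive.ofMul (⟨v, hv⟩ : V) := rfl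
        rw [this, map_add, hu2, hv2, add_zero]
      inv_mem' := by
        rintro u ⟨hu, hu2⟩
        refine ⟨V.inv_mem hu, ?_⟩
        have : (Additive.ofMul (⟨u⁻¹, V.inv_mem hu⟩ : V)) = - Additive.ofMul (⟨u, hu⟩ : V) := rfl
        rw [this, map_neg, hu2, neg_zero] }
  have hVZ : ⁅V, Z⁆ ≤ L := by
    rw [Subgroup.commutator_le]
    intro v hv z hz
    have h1 : z * v * z⁻¹ ∈ V := ‹V.Normal›.conj_mem v hv z
    have h2 : ⁅v, z⁆ = v * (z * v * z⁻¹)⁻¹ := by rw [commutatorElement_def]; group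
    refine ⟨h2 ▸ V.mul_mem hv (V.inv_mem h1), ?_⟩
    have h3 : (Additive.ofMul (⟨⁅v, z⁆, h2 ▸ V.mul_mem hv (V.inv_mem h1)⟩ : V)) =
        Additive.ofMul (⟨v, hv⟩ : V) - ρ z (Additive.ofMul (⟨v, hv⟩ : V)) := by
      apply Additive.toMul.injective
      apply Subtype.ext
      show ⁅v, z⁆ = ((⟨v, hv⟩ : V) / (ρ z (Additive.ofMul (⟨v, hv⟩ : V))).toMul : V)
      rw [Subgroup.coe_div, hρ, h2, div_eq_mul_inv]
    rw [h3, map_sub]
    have h4 := congrArg (fun f : AddMonoid.End (Additive V) => f (Additive.ofMul (⟨v, hv⟩ : V))) (hSz ⟨z, hz⟩)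
    have h5 : S (ρ z (Additive.ofMul (⟨v, hv⟩ : V))) = S (Additive.ofMul (⟨v, hv⟩ : V)) := h4
    rw [h5, sub_self]
  have hid := avg ρ Z hb hbZ hfix
  intro v hv
  obtain ⟨hvV, hv0⟩ := hVZ hv
  set v' : Additive V := Additive.ofMul (⟨v, hvV⟩ : V) with hv'
  -- fixed vectors of b
  have hTfix : ∀ w : Additive V, ρ y ((∑ i ∈ Finset.range p, ρ b ^ i : AddMonoid.End (Additive V)) w) =
      (∑ i ∈ Finset.range p, ρ b ^ i : AddMonoid.End (Additive V)) w := by
    intro w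
    have h1 : ρ b * (∑ i ∈ Finset.range p, ρ b ^ i) = ∑ i ∈ Finset.range p, ρ b ^ i := by
      have := Gen.mul_T (p := p) (x := ρ b) (by rw [← map_pow, hb, map_one])
      exact this
    set u : Additive V := (∑ i ∈ Finset.range p, ρ b ^ i : AddMonoid.End (Additive V)) w with hu
    have h2 : ρ b u = u := congrArg (fun f : AddMonoid.End (Additive V) => f w) h1
    have h3 : b * (u.toMul : X) * b⁻¹ = u.toMul := by
      rw [← hρ b u.toMul]
      exact congrArg (fun t : Additive V => ((t.toMul : V) : X)) h2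
    have h4 := hy (u.toMul : X) u.toMul.2 (mul_inv_eq_iff_eq_mul.mp h3).symm
    apply Additive.toMul.injective
    apply Subtype.ext
    rw [show ((ρ y u).toMul : X) = y * (u.toMul : X) * y⁻¹ from hρ y u.toMul, h4, mul_inv_cancel_right]
  have h1 := congrArg (fun f : AddMonoid.End (Additive V) => f v') hid
  have h2 : (∑ z : Z, ρ (z : X)⁻¹ * (∑ i ∈ Finset.range p, ρ b ^ i) * ρ (z : X) : AddMonoid.End (Additive V)) v' =
      ∑ z : Z, ρ (z : X)⁻¹ ((∑ i ∈ Finset.range p, ρ b ^ i : AddMonoid.End (Additive V)) (ρ (z : X) v')) := by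
    exact map_sum (AddMonoidHom.eval v' : (Additive V →+ Additive V) →+ Additive V)
      (fun z : Z => (ρ (z : X)⁻¹ * (∑ i ∈ Finset.range p, ρ b ^ i) * ρ (z : X) : AddMonoid.End (Additive V))) Finset.univ
  have h3 : ((Fintype.card Z : AddMonoid.End (Additive V)) + (∑ i ∈ Finset.Ico 1 p, ρ b ^ i) * ∑ z : Z, ρ (z : X)) v' =
      Fintype.card Z • v' := by
    have : ((Fintype.card Z : AddMonoid.End (Additive V)) + (∑ i ∈ Finset.Ico 1 p, ρ b ^ i) * ∑ z : Z, ρ (z : X)) v' =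
      Fintype.card Z • v' + (∑ i ∈ Finset.Ico 1 p, ρ b ^ i : AddMonoid.End (Additive V)) (S v') := rfl
    rw [this, hv0, map_zero, add_zero]
  have h4 : Fintype.card Z • v' = ∑ z : Z, ρ (z : X)⁻¹ ((∑ i ∈ Finset.range p, ρ b ^ i : AddMonoid.End (Additive V)) (ρ (z : X) v')) := by
    rw [← h3, ← h2]; exact h1.symm
  have h5 : ρ y (Fintype.card Z • v') = Fintype.card Z • v' := by
    rw [h4, map_sum]
    apply Finset.sum_congr rfl
    intro z _
    have h6 : ρ y * ρ (z : X)⁻¹ = ρ (z : X)⁻¹ * ρ y := by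
      rw [← map_mul, ← map_mul]
      congr 1
      exact (Commute.inv_right (show Commute y (z : X) from hyZ z z.2)).eq
    have h7 := congrArg (fun f : AddMonoid.End (Additive V) => f ((∑ i ∈ Finset.range p, ρ b ^ i : AddMonoid.End (Additive V)) (ρ (z : X) v'))) h6
    have h8 : ρ y (ρ (z : X)⁻¹ ((∑ i ∈ Finset.range p, ρ b ^ i : AddMonoid.End (Additive V)) (ρ (z : X) v'))) =
      ρ (z : X)⁻¹ (ρ y ((∑ i ∈ Finset.range p, ρ b ^ i : AddMonoid.End (Additive V)) (ρ (z : X) v'))) := h7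
    rw [h8, hTfix]
  have h6 : Fintype.card Z • (ρ y v' - v') = 0 := by
    rw [nsmul_sub, ← map_nsmul, h5, sub_self]
  have h7 : (((ρ y v' - v').toMul : V) : X) ^ (Nat.card Z) = 1 := by
    have := congrArg (fun t : Additive V => ((t.toMul : V) : X)) h6
    rw [Nat.card_eq_fintype_card]
    exact this
  have h8 := eq_one_of_pow hcop (ρ y v' - v').toMul.2 h7
  have h9 : y * v * y⁻¹ * v⁻¹ = 1 := by
    rw [← h8]
    show y * v * y⁻¹ * v⁻¹ = (((ρ y v').toMul / v'.toMul : V) : X)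
    rw [Subgroup.coe_div, hρ, div_eq_mul_inv]
    rfl
  rw [mul_inv_eq_one, mul_inv_eq_iff_eq_mul] at h9
  exact h9

end Cfsg.Agent.H22.Avg
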