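import Mathlib
import Cfsg.Agent.H1_Basic

/-!
Class sizes and nilpotency: groups having the class sizes of a nilpotent group.
-/

set_option autoImplicit false
set_option linter.unusedSectionVars false

namespace Cfsg.Agent.H22.CH

open Subgroup
open Cfsg.Agent.H1.Basic

variable {G : Type*} [Group G] [Finite G]

/-- class size -/
noncomputable def cs (x : G) : ℕ := (centralizer ({x} : Set G)).index

theorem ncard_carrier (x : G) :
    Nat.card (ConjClasses.mk x).carrier = cs x := by
  have h1 : (MulAction.stabilizer (ConjAct G) x).index = (MulAction.orbit (ConjAct G) x).ncard :=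
    MulAction.index_stabilizer (ConjAct G) x
  rw [ConjAct.orbit_eq_carrier_conjClasses] at h1
  rw [Nat.card_coe_set_eq, ← h1, ConjAct.stabilizer_eq_centralizer]
  rfl

theorem card_cs (k : ℕ) : Nat.card {x : G // cs x = k} = k * Nat.card {C : ConjClasses G // Nat.card C.carrier = k} := by
  classical
  let e : {x : G // cs x = k} ≃ Σ C : {C : ConjClasses G // Nat.card C.carrier = k}, C.1.carrier :=
    { toFun := fun x => ⟨⟨ConjClasses.mk x.1, by rw [ncard_carrier]; exact x.2⟩, ⟨x.1, ConjClasses.mem_carrier_mk⟩⟩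
      invFun := fun y => ⟨y.2.1, by
        have h1 : ConjClasses.mk y.2.1 = y.1.1 := ConjClasses.mem_carrier_iff_mk_eq.mp y.2.2
        rw [← ncard_carrier, h1]
        exact y.1.2⟩
      left_inv := fun x => rfl
      right_inv := by
        rintro ⟨⟨C, hC⟩, ⟨x, hx⟩⟩
        have h1 : ConjClasses.mk x = C := ConjClasses.mem_carrier_iff_mk_eq.mp hx
        subst h1
        rfl }
  haveI : Fintype {C : ConjClasses G // Nat.card C.carrier = k} := Fintype.ofFinite _
  rw [Nat.card_congr e, Nat.card_sigma]
  rw [Finset.sum_congr rfl (fun C _ => C.2), Finset.sum_const, smul_eq_mul, mul_comm, Finset.card_univ, ← Nat.card_eq_fintype_card]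

theorem exists_equiv {H : Type*} [Group H] [Finite H]
    (h : ∀ k : ℕ, Nat.card {C : ConjClasses G // Nat.card C.carrier = k} = Nat.card {C : ConjClasses H // Nat.card C.carrier = k}) :
    ∃ e : G ≃ H, ∀ x, cs (e x) = cs x := by
  classical
  have h2 : ∀ k, Nonempty ({x : G // cs x = k} ≃ {x : H // cs x = k}) := by
    intro k
    apply Finite.card_eq.mp
    rw [card_cs, card_cs, h k]
  let e := fun k => (h2 k).some
  refine ⟨(Equiv.sigmaFiberEquiv (cs : G → ℕ)).symm.trans ((Equiv.sigmaCongrRight e).trans (Equiv.sigmaFiberEquiv (cs : H → ℕ))), ?_⟩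
  intro x
  show cs ((e (cs x) ⟨x, rfl⟩ : {x : H // cs x = _}) : H) = cs x
  exact (e (cs x) ⟨x, rfl⟩).2

theorem mem_c {x g : G} : g ∈ centralizer ({x} : Set G) ↔ g * x = x * g := mem_centralizer_singleton_iff

theorem cs_dvd_of_le {x y : G} (h : centralizer ({x} : Set G) ≤ centralizer ({y} : Set G)) : cs y ∣ cs x :=
  Subgroup.index_dvd_of_le h

/-- `p ∤ cs x` iff `x` centralises a Sylow subgroup -/
theorem exists_sylow {p : ℕ} [Fact p.Prime] {x : G} (h : ¬ p ∣ cs x) : ∃ P : Sylow p G, (P : Subgroup G) ≤ centralizer ({x} : Set G) := by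
  obtain ⟨T⟩ : Nonempty (Sylow p (centralizer ({x} : Set G))) := inferInstance
  have hT : ¬ p ∣ ((T : Subgroup (centralizer ({x} : Set G))).map (centralizer ({x} : Set G)).subtype).index := by
    rw [Subgroup.index_map_subtype]
    intro hd
    rcases (Fact.out : p.Prime).dvd_mul.mp hd with h1 | h1
    · exact T.not_dvd_index h1
    · exact h h1
  refine ⟨(T.2.map _).toSylow hT, ?_⟩
  rintro _ ⟨t, _, rfl⟩
  exact t.2

theorem not_dvd_of_sylow {p : ℕ} [Fact p.Prime] {x : G} (P : Sylow p G) (h : (P : Subgroup G) ≤ centralizer ({x} : Set G)) : ¬ p ∣ cs x := by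
  intro hd
  exact P.not_dvd_index (hd.trans (Subgroup.index_dvd_of_le h))

/-- central `p`-subgroups lie in every Sylow `p`-subgroup -/
theorem le_sylow_of_normal {p : ℕ} [Fact p.Prime] (P : Sylow p G) {T : Subgroup G} (hT : IsPGroup p T) (hn : T.Normal) :
    T ≤ P := by
  have h1 : IsPGroup p ((P : Subgroup G) ⊔ T : Subgroup G) := P.2.to_sup_of_normal_right hT
  have h2 := P.is_maximal' h1 le_sup_left
  rw [← h2]
  exact le_sup_right

theorem exists_central {p : ℕ} [Fact p.Prime] (P : Sylow p G) {k : ℕ} (hk : p ^ k ∣ Nat.card (center G)) :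
    ∃ T : Subgroup G, T ≤ center G ∧ T ≤ P ∧ Nat.card T = p ^ k ∧ T.Normal := by
  obtain ⟨T, hT⟩ := Sylow.exists_subgroup_card_pow_prime p hk
  have h1 : T.map (center G).subtype ≤ center G := by
    rintro _ ⟨t, _, rfl⟩
    exact t.2
  have hn : (T.map (center G).subtype).Normal := by
    constructor
    intro n hn g
    have := mem_center_iff.mp (h1 hn) g
    rw [this, mul_inv_cancel_right]
    exact hn
  have hc : Nat.card (T.map (center G).subtype) = p ^ k := by
    rw [Subgroup.card_map_of_injective (center G).subtype_injective, hT]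
  exact ⟨_, h1, le_sylow_of_normal P (IsPGroup.of_card hc) hn, hc, hn⟩

end Cfsg.Agent.H22.CH
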