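import Mathlib
import Cfsg.Agent.H22_CH1

/-!
Class sizes and nilpotency: centres of Sylow subgroups.
-/

set_option autoImplicit false
set_option linter.unusedSectionVars false

namespace Cfsg.Agent.H22.CH

open Subgroup
open Cfsg.Agent.H1.Basic

variable {G : Type*} [Group G] [Finite G]

/-- elements fixed modulo a central `p`-subgroup -/
theorem fixed_mod {p : ℕ} [hp : Fact p.Prime] {Z : Subgroup G} (hZ : Z ≤ center G) (hZp : IsPGroup p Z) {x : G} (hx : ¬ p ∣ cs x)
    {P : Subgroup G} (hP : ∀ g ∈ P, g * x * g⁻¹ * x⁻¹ ∈ Z) : ∀ g ∈ P, g * x = x * g := by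
  let N : Subgroup G :=
    { carrier := {g | g * x * g⁻¹ * x⁻¹ ∈ Z}
      one_mem' := by
        show 1 * x * 1⁻¹ * x⁻¹ ∈ Z
        simp
      mul_mem' := by
        intro a b ha hb
        show a * b * x * (a * b)⁻¹ * x⁻¹ ∈ Z
        have h1 : a * b * x * (a * b)⁻¹ * x⁻¹ = (a * (b * x * b⁻¹ * x⁻¹) * a⁻¹) * (a * x * a⁻¹ * x⁻¹) := by group
        have h2 := mem_center_iff.mp (hZ hb) a
        rw [h1, h2, mul_inv_cancel_right]
        exact mul_mem hb ha
      inv_mem' := by
        intro a ha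
        show a⁻¹ * x * a⁻¹⁻¹ * x⁻¹ ∈ Z
        have h1 : a⁻¹ * x * a⁻¹⁻¹ * x⁻¹ = a⁻¹ * (a * x * a⁻¹ * x⁻¹)⁻¹ * a := by group
        have h2 := mem_center_iff.mp (hZ (inv_mem ha)) a⁻¹
        rw [h1, h2, inv_mul_cancel_right]
        exact inv_mem ha }
  have hN : ∀ g : N, (g : G) * x * (g : G)⁻¹ * x⁻¹ ∈ Z := fun g => g.2
  let φ : N →* Z :=
    { toFun := fun g => ⟨(g : G) * x * (g : G)⁻¹ * x⁻¹, hN g⟩
      map_one' := by
        apply Subtype.ext
        show ((1 : N) : G) * x * ((1 : N) : G)⁻¹ * x⁻¹ = 1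
        simp
      map_mul' := by
        intro a b
        apply Subtype.ext
        show (a : G) * b * x * ((a : G) * b)⁻¹ * x⁻¹ = ((a : G) * x * (a : G)⁻¹ * x⁻¹) * ((b : G) * x * (b : G)⁻¹ * x⁻¹)
        have h1 : (a : G) * b * x * ((a : G) * b)⁻¹ * x⁻¹ = ((a : G) * (b * x * (b : G)⁻¹ * x⁻¹) * (a : G)⁻¹) * (a * x * (a : G)⁻¹ * x⁻¹) := by group
        have h2 := mem_center_iff.mp (hZ (hN b)) (a : G)
        have h3 := mem_center_iff.mp (hZ (hN b)) ((a : G) * x * (a : G)⁻¹ * x⁻¹)
        rw [h1, h2, mul_inv_cancel_right, ← h3] }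
  have hker : φ.ker = (centralizer ({x} : Set G)).subgroupOf N := by
    ext g
    rw [MonoidHom.mem_ker, mem_subgroupOf, mem_c]
    constructor
    · intro h
      have h1 : (g : G) * x * (g : G)⁻¹ * x⁻¹ = 1 := congrArg Subtype.val h
      calc (g : G) * x = ((g : G) * x * (g : G)⁻¹ * x⁻¹) * x * g := by group
        _ = x * g := by rw [h1, one_mul]
    · intro h
      apply Subtype.ext
      show (g : G) * x * (g : G)⁻¹ * x⁻¹ = 1
      rw [h]; group
  have hCN : centralizer ({x} : Set G) ≤ N := by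
    intro g hg
    rw [mem_c] at hg
    show g * x * g⁻¹ * x⁻¹ ∈ Z
    have : g * x * g⁻¹ * x⁻¹ = 1 := by rw [hg]; group
    rw [this]
    exact one_mem _
  have h1 : Nat.card φ.range ∣ cs x := by
    rw [← Subgroup.index_ker, hker]
    exact Dvd.intro _ (Subgroup.relIndex_mul_index hCN)
  have h2 : Nat.card φ.range = 1 := by
    obtain ⟨k, hk⟩ := IsPGroup.iff_card.mp (hZp.to_subgroup φ.range)
    rcases Nat.eq_zero_or_pos k with h3 | h3
    · rw [hk, h3, pow_zero]
    · exfalso
      apply hx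
      refine Dvd.dvd.trans ?_ h1
      rw [hk]
      exact dvd_pow_self p (by omega)
  intro g hg
  have h3 : φ.range = ⊥ := Subgroup.card_eq_one.mp h2
  have h4 : φ ⟨g, hP g hg⟩ ∈ φ.range := ⟨_, rfl⟩
  rw [h3, mem_bot] at h4
  have h5 : g * x * g⁻¹ * x⁻¹ = 1 := congrArg Subtype.val h4
  calc g * x = (g * x * g⁻¹ * x⁻¹) * x * g := by group
    _ = x * g := by rw [h5, one_mul]

/-- the class size condition forces the centre of a Sylow subgroup to be central -/
theorem center_sylow {p : ℕ} [hp : Fact p.Prime] (P : Sylow p G)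
    (h : ∀ k, p ^ k ∣ Nat.card {x : G // ¬ p ∣ cs x} → p ^ k ∣ Nat.card (center G)) :
    (P : Subgroup G) ⊓ centralizer (P : Set G) ≤ center G := by
  classical
  set Z : Subgroup G := (P : Subgroup G) ⊓ center G with hZdef
  have hZc : Z ≤ center G := inf_le_right
  haveI hZn : Z.Normal := by
    constructor
    intro n hn g
    have := mem_center_iff.mp (hZc hn) g
    rw [this, mul_inv_cancel_right]
    exact hn
  have hZp : IsPGroup p Z := P.2.to_le inf_le_left
  obtain ⟨j, hj⟩ := IsPGroup.iff_card.mp hZp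
  have hnot : ¬ p ^ (j + 1) ∣ Nat.card (center G) := by
    intro hd
    obtain ⟨T, h1, h2, h3, _⟩ := exists_central P hd
    have h4 : T ≤ Z := le_inf h2 h1
    have h5 := Subgroup.card_le_of_le h4
    rw [h3, hj] at h5
    have := (Nat.pow_le_pow_iff_right hp.out.one_lt).mp h5
    omega
  by_contra hcon
  apply hnot
  apply h
  -- the quotient set
  let D : Set (G ⧸ Z) := {q | ∃ x : G, ¬ p ∣ cs x ∧ (QuotientGroup.mk x : G ⧸ Z) = q}
  have hcs : ∀ x : G, ∀ z ∈ Z, cs (x * z) = cs x := by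
    intro x z hz
    have : centralizer ({x * z} : Set G) = centralizer ({x} : Set G) := by
      ext g
      rw [mem_c, mem_c]
      have h2 := mem_center_iff.mp (hZc hz)
      constructor
      · intro h3
        rw [← mul_assoc, mul_assoc x z g, ← h2 g, ← mul_assoc] at h3
        exact mul_right_cancel h3
      · intro h3
        rw [← mul_assoc, h3, mul_assoc, mul_assoc, h2 g]
    rw [cs, cs, this]
  have hpreD : (QuotientGroup.mk ⁻¹' D : Set G) = {x : G | ¬ p ∣ cs x} := by
    ext x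
    constructor
    · rintro ⟨y, hy, hyx⟩
      have h2 := QuotientGroup.eq.mp hyx
      have h3 : x = y * (y⁻¹ * x) := by group
      show ¬ p ∣ cs x
      rw [h3, hcs y _ h2]
      exact hy
    · intro hx
      exact ⟨x, hx, rfl⟩
  have hcardD : Nat.card {x : G // ¬ p ∣ cs x} = p ^ j * Nat.card D := by
    rw [← hj, ← QuotientGroup.card_preimage_mk Z D, hpreD]
    rfl
  have hcsconj : ∀ g x : G, cs (g * x * g⁻¹) = cs x := by
    intro g x
    rw [← ncard_carrier, ← ncard_carrier]
    have : ConjClasses.mk (g * x * g⁻¹) = ConjClasses.mk x := by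
      rw [ConjClasses.mk_eq_mk_iff_isConj]
      exact (isConj_iff.mpr ⟨g, rfl⟩).symm
    rw [this]
  letI act : MulAction P D :=
    { smul := fun g q => ⟨(QuotientGroup.mk (g : G) : G ⧸ Z) * q.1 * (QuotientGroup.mk (g : G) : G ⧸ Z)⁻¹, by
        obtain ⟨x, hx, hxq⟩ := q.2
        refine ⟨(g : G) * x * (g : G)⁻¹, ?_, ?_⟩
        · rw [hcsconj]; exact hx
        · rw [← hxq]; rfl⟩
      one_smul := by
        intro q
        apply Subtype.ext
        show (QuotientGroup.mk ((1 : P) : G) : G ⧸ Z) * q.1 * (QuotientGroup.mk ((1 : P) : G) : G ⧸ Z)⁻¹ = q.1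
        simp
      mul_smul := by
        intro a b q
        apply Subtype.ext
        show (QuotientGroup.mk ((a * b : P) : G) : G ⧸ Z) * q.1 * (QuotientGroup.mk ((a * b : P) : G) : G ⧸ Z)⁻¹ =
          (QuotientGroup.mk (a : G) : G ⧸ Z) * ((QuotientGroup.mk (b : G) : G ⧸ Z) * q.1 * (QuotientGroup.mk (b : G) : G ⧸ Z)⁻¹) * (QuotientGroup.mk (a : G) : G ⧸ Z)⁻¹
        rw [Subgroup.coe_mul, QuotientGroup.mk_mul]
        group }
  have hmod := P.2.card_modEq_card_fixedPoints D
  -- fixed points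
  let F : Set (G ⧸ Z) := {q | ∃ x : G, x ∈ centralizer ((P : Subgroup G) : Set G) ∧ (QuotientGroup.mk x : G ⧸ Z) = q}
  have hF : Nat.card (MulAction.fixedPoints P D) = Nat.card F := by
    apply Nat.card_congr
    refine
      { toFun := fun q => ⟨q.1.1, ?_⟩
        invFun := fun q => ⟨⟨q.1, ?_⟩, ?_⟩
        left_inv := fun q => rfl
        right_inv := fun q => rfl }
    · obtain ⟨⟨q, hq⟩, hfix⟩ := q
      obtain ⟨x, hx, rfl⟩ := hq
      refine ⟨x, ?_, rfl⟩
      have h3 : ∀ g ∈ (P : Subgroup G), g * x * g⁻¹ * x⁻¹ ∈ Z := by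
        intro g hg
        have h4 := congrArg Subtype.val (hfix ⟨g, hg⟩)
        have h5 : (QuotientGroup.mk (g * x * g⁻¹) : G ⧸ Z) = QuotientGroup.mk x := h4
        rw [QuotientGroup.eq] at h5
        have h6 : g * x * g⁻¹ * x⁻¹ = x * (((g * x * g⁻¹)⁻¹ * x)⁻¹) * x⁻¹ := by group
        rw [h6]
        exact hZn.conj_mem _ (inv_mem h5) x
      have h4 := fixed_mod hZc hZp hx h3
      rw [mem_centralizer_iff]
      exact fun g hg => h4 g hg
    · obtain ⟨q, x, hx, rfl⟩ := q
      refine ⟨x, ?_, rfl⟩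
      apply not_dvd_of_sylow P
      intro g hg
      rw [mem_c]
      exact mem_centralizer_iff.mp hx g hg
    · obtain ⟨q, x, hx, rfl⟩ := q
      intro g
      apply Subtype.ext
      show (QuotientGroup.mk (g : G) : G ⧸ Z) * QuotientGroup.mk x * (QuotientGroup.mk (g : G) : G ⧸ Z)⁻¹ = QuotientGroup.mk x
      have h3 := mem_centralizer_iff.mp hx (g : G) g.2
      rw [← QuotientGroup.mk_mul, h3, QuotientGroup.mk_mul, mul_inv_cancel_right]
  have hpreF : (QuotientGroup.mk ⁻¹' F : Set G) = (centralizer ((P : Subgroup G) : Set G) : Set G) := by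
    ext x
    constructor
    · rintro ⟨y, hy, hyx⟩
      have h2 := QuotientGroup.eq.mp hyx
      have h3 : x = y * (y⁻¹ * x) := by group
      rw [h3]
      refine mul_mem hy ?_
      rw [mem_centralizer_iff]
      intro g _
      exact mem_center_iff.mp (hZc h2) g
    · intro hx
      exact ⟨x, hx, rfl⟩
  have hcardF : Nat.card (centralizer ((P : Subgroup G) : Set G)) = p ^ j * Nat.card F := by
    rw [← hj, ← QuotientGroup.card_preimage_mk Z F, hpreF]
    rfl
  -- the centre of P is bigger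
  have hY : IsPGroup p ((P : Subgroup G) ⊓ centralizer (P : Set G) : Subgroup G) := P.2.to_le inf_le_left
  obtain ⟨i, hi⟩ := IsPGroup.iff_card.mp hY
  have hZY : Z ≤ (P : Subgroup G) ⊓ centralizer (P : Set G) := by
    refine inf_le_inf_left _ ?_
    intro x hx
    rw [mem_centralizer_iff]
    intro g _
    exact mem_center_iff.mp hx g
  have hij : j < i := by
    by_contra hle
    push Not at hle
    apply hcon
    have h3 : Z = (P : Subgroup G) ⊓ centralizer (P : Set G) := by
      apply Subgroup.eq_of_le_of_card_ge hZY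
      rw [hi, hj]
      exact Nat.pow_le_pow_right hp.out.pos hle
    rw [← h3]
    exact hZc
  have hd : p ^ (j + 1) ∣ p ^ j * Nat.card F := by
    rw [← hcardF]
    calc p ^ (j + 1) ∣ p ^ i := pow_dvd_pow _ hij
      _ = Nat.card ((P : Subgroup G) ⊓ centralizer (P : Set G) : Subgroup G) := hi.symm
      _ ∣ _ := Subgroup.card_dvd_of_le inf_le_right
  rw [pow_succ] at hd
  have hd2 : p ∣ Nat.card F := Nat.dvd_of_mul_dvd_mul_left (pow_pos hp.out.pos j) hd
  rw [hcardD, pow_succ]
  apply Nat.mul_dvd_mul_left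
  rw [hF] at hmod
  exact (Nat.modEq_zero_iff_dvd.mp (hmod.trans (Nat.modEq_zero_iff_dvd.mpr hd2)))

end Cfsg.Agent.H22.CH
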