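import Mathlib
import Cfsg.Agent.H22_CH2
import Cfsg.Agent.H1_Factor

/-!
Class sizes and nilpotency: elements of prime power class size.
-/

set_option autoImplicit false
set_option linter.unusedSectionVars false

namespace Cfsg.Agent.H22.CH

open Subgroup
open Cfsg.Agent.H1.Basic

variable {G : Type*} [Group G] [Finite G]

theorem zpowers_pgroup {r : ℕ} {t : G} {k : ℕ} (h : t ^ (r ^ k) = 1) : IsPGroup r (zpowers t) := by
  rintro ⟨y, i, rfl⟩
  refine ⟨k, ?_⟩
  apply Subtype.ext
  show (t ^ i) ^ (r ^ k) = 1
  rw [← zpow_natCast, ← zpow_mul, mul_comm, zpow_mul, zpow_natCast, h, one_zpow]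

/-- `p`-elements of `p`-power class size lie in the normal core of each Sylow subgroup -/
theorem mem_core {p : ℕ} [hp : Fact p.Prime] (P : Sylow p G) {t : G} {k : ℕ} (ht : t ^ (p ^ k) = 1)
    (h : ∀ r : ℕ, r.Prime → r ≠ p → ¬ r ∣ cs t) : t ∈ (P : Subgroup G).normalCore := by
  obtain ⟨P0, hP0⟩ := (zpowers_pgroup ht).exists_le_sylow
  have htP0 : t ∈ P0 := hP0 (mem_zpowers t)
  have hcop : (P0 : Subgroup G).index.Coprime (centralizer ({t} : Set G)).index := by
    apply Nat.Coprime.symm
    apply Nat.coprime_of_dvd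
    intro r hr h1 h2
    by_cases hrp : r = p
    · subst hrp
      exact P0.not_dvd_index h2
    · exact h r hr hrp h1
  have hfac := (H1.Factor.index_inf_of_coprime _ _ hcop).2
  have h1 : Subgroup.normalClosure {t} ≤ (P0 : Subgroup G) := by
    rw [Subgroup.normalClosure, closure_le]
    intro y hy
    rw [Group.mem_conjugatesOfSet_iff] at hy
    obtain ⟨a, ha, hay⟩ := hy
    rw [Set.mem_singleton_iff] at ha
    subst ha
    obtain ⟨g, rfl⟩ := isConj_iff.mp hay
    obtain ⟨x, hx, y, hy, rfl⟩ := hfac g
    rw [mem_c] at hy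
    have h2 : x * y * a * (x * y)⁻¹ = x * a * x⁻¹ := by
      rw [mul_assoc x y a, hy]; group
    show x * y * a * (x * y)⁻¹ ∈ (P0 : Subgroup G)
    rw [h2]
    exact mul_mem (mul_mem hx htP0) (inv_mem hx)
  have h2 : IsPGroup p (Subgroup.normalClosure {t}) := P0.2.to_le h1
  have h3 := le_sylow_of_normal P h2 inferInstance
  have h4 : Subgroup.normalClosure {t} ≤ (P : Subgroup G).normalCore := Subgroup.normal_le_normalCore.mpr h3
  exact h4 (Subgroup.subset_normalClosure rfl)

/-- elements of `p`-power class size -/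
theorem mem_sup {p : ℕ} [hp : Fact p.Prime] (P : Sylow p G)
    (hc : ∀ (r : ℕ) [Fact r.Prime] (R : Sylow r G), (R : Subgroup G) ⊓ centralizer (R : Set G) ≤ center G) {x : G}
    (h : ∀ r : ℕ, r.Prime → r ≠ p → ¬ r ∣ cs x) : x ∈ center G ⊔ (P : Subgroup G).normalCore := by
  set L := center G ⊔ (P : Subgroup G).normalCore with hL
  have hkey : ∀ (r : ℕ), r.Prime → ∀ t ∈ zpowers x, (∃ k, t ^ (r ^ k) = 1) → t ∈ L := by
    intro r hr t ht hk
    obtain ⟨k, hk⟩ := hk
    haveI : Fact r.Prime := ⟨hr⟩
    have hle : centralizer ({x} : Set G) ≤ centralizer ({t} : Set G) := by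
      intro g hg
      rw [mem_c] at hg ⊢
      obtain ⟨i, rfl⟩ := mem_zpowers_iff.mp ht
      exact (Commute.zpow_right hg i)
    have hdvd : cs t ∣ cs x := cs_dvd_of_le hle
    by_cases hrp : r = p
    · subst hrp
      exact mem_sup_right (mem_core P hk (fun s hs hsp hd => h s hs hsp (hd.trans hdvd)))
    · obtain ⟨R, hR⟩ := exists_sylow (p := r) (x := t) (fun hd => h r hr hrp (hd.trans hdvd))
      have h1 : IsPGroup r ((R : Subgroup G) ⊔ zpowers t : Subgroup G) := by
        apply IsPGroup.to_sup_of_normal_left' R.2 (zpowers_pgroup hk)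
        rw [zpowers_le, mem_normalizer_iff]
        intro y
        have hty : ∀ y ∈ (R : Subgroup G), t * y * t⁻¹ = y := by
          intro y hy
          have := mem_c.mp (hR hy)
          rw [← this, mul_inv_cancel_right]
        constructor
        · intro hy
          have := hty y hy
          rw [this]; exact hy
        · intro hy
          have h2 := hty _ hy
          have h3 : t * y * t⁻¹ = y := by
            have h4 : t * (t * y * t⁻¹) * t⁻¹ = t * y * t⁻¹ := h2
            have h5 := mul_right_cancel h4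
            exact mul_left_cancel h5
          rw [h3] at hy
          exact hy
      have h2 := R.is_maximal' h1 le_sup_left
      have h3 : t ∈ (R : Subgroup G) := by
        rw [← h2]
        exact mem_sup_right (mem_zpowers t)
      refine mem_sup_left (hc r R (mem_inf.mpr ⟨h3, ?_⟩))
      rw [mem_centralizer_iff]
      intro g hg
      exact mem_c.mp (hR hg)
  have hidx : (L.subgroupOf (zpowers x)).index = 1 := by
    by_contra hne
    obtain ⟨r, hr, hrd⟩ := Nat.exists_prime_and_dvd hne
    haveI : Fact r.Prime := ⟨hr⟩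
    obtain ⟨T⟩ : Nonempty (Sylow r (zpowers x)) := inferInstance
    have h1 : (T : Subgroup (zpowers x)) ≤ L.subgroupOf (zpowers x) := by
      intro t ht
      rw [mem_subgroupOf]
      obtain ⟨k, hk⟩ := T.2 ⟨t, ht⟩
      refine hkey r hr t t.2 ⟨k, ?_⟩
      have h2 := congrArg (fun z : T => ((z : zpowers x) : G)) hk
      simpa using h2
    exact T.not_dvd_index (hrd.trans (Subgroup.index_dvd_of_le h1))
  rw [Subgroup.index_eq_one] at hidx
  have : (⟨x, mem_zpowers x⟩ : zpowers x) ∈ L.subgroupOf (zpowers x) := by rw [hidx]; trivial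
  exact this

/-! ### nilpotent groups -/

theorem comm_sylow [Group.IsNilpotent G] {p r : ℕ} [Fact p.Prime] [Fact r.Prime] (hpr : p ≠ r) (P : Sylow p G) (R : Sylow r G) :
    ∀ x ∈ (P : Subgroup G), ∀ y ∈ (R : Subgroup G), x * y = y * x := by
  intro x hx y hy
  exact Subgroup.commute_of_normal_of_disjoint (P : Subgroup G) (R : Subgroup G) inferInstance inferInstance
    (IsPGroup.disjoint_of_ne p r hpr _ _ P.2 R.2) x y hx hy

theorem nil_D [Group.IsNilpotent G] {p : ℕ} [hp : Fact p.Prime] (P : Sylow p G) (k : ℕ)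
    (h : p ^ k ∣ Nat.card {x : G // ¬ p ∣ cs x}) : p ^ k ∣ Nat.card (center G) := by
  have h1 : Nat.card {x : G // ¬ p ∣ cs x} = Nat.card (centralizer ((P : Subgroup G) : Set G)) := by
    apply Nat.card_congr
    refine Equiv.subtypeEquivRight ?_
    intro x
    constructor
    · intro hx
      obtain ⟨P', hP'⟩ := exists_sylow hx
      have h2 : (P : Subgroup G) ≤ P' := le_sylow_of_normal P' P.2 inferInstance
      rw [mem_centralizer_iff]
      intro g hg
      exact mem_c.mp (hP' (h2 hg))
    · intro hx
      apply not_dvd_of_sylow P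
      intro g hg
      rw [mem_c]
      exact mem_centralizer_iff.mp hx g hg
  rw [h1] at h
  obtain ⟨T, hT⟩ := Sylow.exists_subgroup_card_pow_prime p h
  have hTc : Nat.card (T.map (centralizer ((P : Subgroup G) : Set G)).subtype) = p ^ k := by
    rw [Subgroup.card_map_of_injective (centralizer ((P : Subgroup G) : Set G)).subtype_injective, hT]
  have hTp : IsPGroup p (T.map (centralizer ((P : Subgroup G) : Set G)).subtype) := IsPGroup.of_card hTc
  have hTP : T.map (centralizer ((P : Subgroup G) : Set G)).subtype ≤ P := by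
    have h2 : IsPGroup p ((P : Subgroup G) ⊔ T.map (centralizer ((P : Subgroup G) : Set G)).subtype : Subgroup G) := P.2.to_sup_of_normal_left hTp
    have h3 := P.is_maximal' h2 le_sup_left
    calc T.map (centralizer ((P : Subgroup G) : Set G)).subtype ≤ (P : Subgroup G) ⊔ T.map (centralizer ((P : Subgroup G) : Set G)).subtype := le_sup_right
      _ = (P : Subgroup G) := h3
  have hTz : T.map (centralizer ((P : Subgroup G) : Set G)).subtype ≤ center G := by
    intro t ht
    have htP := hTP ht
    have htC : t ∈ centralizer ((P : Subgroup G) : Set G) := by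
      obtain ⟨t', _, rfl⟩ := ht
      exact t'.2
    have h2 : (centralizer ({t} : Set G)).index = 1 := by
      by_contra hne
      obtain ⟨r, hr, hrd⟩ := Nat.exists_prime_and_dvd hne
      haveI : Fact r.Prime := ⟨hr⟩
      by_cases hrp : r = p
      · subst hrp
        refine not_dvd_of_sylow P ?_ hrd
        intro g hg
        rw [mem_c]
        exact mem_centralizer_iff.mp htC g hg
      · obtain ⟨R⟩ : Nonempty (Sylow r G) := inferInstance
        refine not_dvd_of_sylow R ?_ hrd
        intro g hg
        rw [mem_c]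
        exact (comm_sylow (Ne.symm hrp) P R t htP g hg).symm
    rw [Subgroup.index_eq_one] at h2
    rw [mem_center_iff]
    intro g
    exact mem_c.mp (by rw [h2]; trivial)
  rw [← hTc]
  exact Subgroup.card_dvd_of_le hTz

theorem nil_A [Group.IsNilpotent G] {p : ℕ} [hp : Fact p.Prime] (P : Sylow p G) :
    Nat.card P * Nat.card (center G) ≤ Nat.card {x : G // ∀ r : ℕ, r.Prime → r ≠ p → ¬ r ∣ cs x} *
      Nat.card ((P : Subgroup G) ⊓ center G : Subgroup G) := by
  have h1 := card_sup_mul_card_inf (H := (P : Subgroup G)) (K := center G) (by rw [normalizer_eq_top]; exact le_top)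
  have h2 : Nat.card P * Nat.card (center G) = Nat.card ((P : Subgroup G) ⊔ center G : Subgroup G) * Nat.card ((P : Subgroup G) ⊓ center G : Subgroup G) := h1.symm
  rw [h2]
  apply Nat.mul_le_mul_right
  apply Nat.card_le_card_of_injective (fun x : ((P : Subgroup G) ⊔ center G : Subgroup G) => (⟨x.1, ?_⟩ : {x : G // ∀ r : ℕ, r.Prime → r ≠ p → ¬ r ∣ cs x}))
  · intro a b hab
    exact Subtype.ext (congrArg (fun z => z.1) hab)
  · intro r hr hrp
    haveI : Fact r.Prime := ⟨hr⟩
    obtain ⟨R⟩ : Nonempty (Sylow r G) := inferInstance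
    apply not_dvd_of_sylow R
    intro g hg
    rw [mem_c]
    obtain ⟨u, hu, c, hc, huc⟩ := mem_sup_of_normal_right.mp x.2
    rw [← huc]
    have h3 := comm_sylow (Ne.symm hrp) P R u hu g hg
    have h4 := mem_center_iff.mp hc g
    rw [← mul_assoc, ← h3, mul_assoc, h4, mul_assoc]

end Cfsg.Agent.H22.CH
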