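import Mathlib
import Cfsg.Agent.H22_ClassCount
import Cfsg.Agent.H22_Basic
import Cfsg.Agent.H2_Fusion3
import Cfsg.Agent.H1_Coprime2

/-!
Class counting II: orbit bounds, centric subgroups with odd automorphisms.
-/

set_option autoImplicit false

namespace Cfsg.Agent.H22.ClassCount

open Subgroup
open scoped Pointwise

theorem orbit_bound_gen {M P : Type*} [Group M] [Finite M] [Group P] [Finite P] 
    (φ : M →* MulAut P) [MulAction M P]
    (hact : ∀ (m : M) (x : P), m • x = φ m x) (s t : ℕ) (ht1 : 1 ≤ t) (hker : s * Nat.card φ.ker ≤ Nat.card M)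
    (ht : ∀ m : M, m ∉ φ.ker → t * Nat.card {x : P // φ m x = x} ≤ Nat.card P) :
    s * t * Nat.card (Quotient (MulAction.orbitRel M P)) ≤ (s + (t - 1)) * Nat.card P := by
  classical
  have : Fintype M := Fintype.ofFinite M
  have : Fintype P := Fintype.ofFinite P
  have hB := MulAction.sum_card_fixedBy_eq_card_orbits_mul_card_group M P
  rw [← Nat.card_eq_fintype_card, ← Nat.card_eq_fintype_card] at hB
  have hcard : Nat.card φ.ker = (Finset.univ.filter (fun m : M => m ∈ φ.ker)).card := by
    rw [Nat.card_eq_fintype_card, Fintype.card_subtype]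
  obtain ⟨q, hq⟩ : ∃ q, t = q + 1 := ⟨t - 1, by omega⟩
  have hsum : ∑ m : M, t * Fintype.card (MulAction.fixedBy P m) ≤
      ∑ m : M, ((if m ∈ φ.ker then q * Nat.card P else 0) + Nat.card P) := by
    apply Finset.sum_le_sum
    intro m _
    by_cases hm : m ∈ φ.ker
    · rw [if_pos hm]
      have h1 : Fintype.card (MulAction.fixedBy P m) ≤ Nat.card P := by
        rw [Nat.card_eq_fintype_card]; exact set_fintype_card_le_univ _
      calc t * Fintype.card (MulAction.fixedBy P m) ≤ t * Nat.card P := Nat.mul_le_mul_left _ h1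
        _ = q * Nat.card P + Nat.card P := by rw [hq]; ring
    · rw [if_neg hm, zero_add]
      have h2 : Fintype.card (MulAction.fixedBy P m) = Nat.card {x : P // φ m x = x} := by
        rw [← Nat.card_eq_fintype_card]
        apply Nat.card_congr
        exact Equiv.subtypeEquivRight (fun x => by rw [MulAction.mem_fixedBy, hact])
      rw [h2]
      exact ht m hm
  rw [← Finset.mul_sum, hB, Finset.sum_add_distrib, ← Finset.sum_filter, Finset.sum_const,
    Finset.sum_const, ← hcard, Finset.card_univ, ← Nat.card_eq_fintype_card] at hsum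
  simp only [smul_eq_mul] at hsum
  set n := Nat.card (Quotient (MulAction.orbitRel M P)) with hn
  have hq' : t - 1 = q := by omega
  rw [hq']
  rw [Nat.card_eq_fintype_card (α := M)] at *
  have key : (s * t * n) * Fintype.card M ≤ ((s + q) * Nat.card P) * Fintype.card M := by
    calc (s * t * n) * Fintype.card M = s * (t * (n * Fintype.card M)) := by ring
      _ ≤ s * (Nat.card φ.ker * (q * Nat.card P) + Fintype.card M * Nat.card P) := by
          apply Nat.mul_le_mul_left
          convert hsum using 1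
      _ = (s * Nat.card φ.ker) * (q * Nat.card P) + s * (Fintype.card M * Nat.card P) := by ring
      _ ≤ (Fintype.card M) * (q * Nat.card P) + s * (Fintype.card M * Nat.card P) := by
          gcongr
      _ = ((s + q) * Nat.card P) * Fintype.card M := by ring
  exact Nat.le_of_mul_le_mul_right key (by rw [← Nat.card_eq_fintype_card]; exact Nat.card_pos)

/-- an odd order automorphism of a 2-group fixes at most a quarter -/
theorem card_fixed_le_four {P : Type*} [Group P] [Finite P] (hP : IsPGroup 2 P)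
    (a : MulAut P) (ha : a ≠ 1) (hodd : Odd (orderOf a)) : 4 * Nat.card {x : P // a x = x} ≤ Nat.card P := by
  let F : Subgroup P := (a.toMonoidHom).eqLocus (MonoidHom.id P)
  have hmem : ∀ x : P, x ∈ F ↔ a x = x := fun x => Iff.rfl
  have hF : Nat.card F = Nat.card {x : P // a x = x} := rfl
  have hne : F ≠ ⊤ := by
    intro h
    apply ha
    ext x
    have hx : x ∈ F := by rw [h]; trivial
    exact hx
  have h1 : F.index ≠ 1 := fun h => hne (Subgroup.index_eq_one.mp h)
  have h2 : F.index ≠ 2 := by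
    intro h2
    obtain ⟨x, -, hx⟩ := SetLike.exists_of_lt (lt_top_iff_ne_top.mpr hne)
    have hFn : F.Normal := Subgroup.normal_of_index_eq_two h2
    have h3 : a x ∉ F := by
      intro h3
      apply hx
      rw [hmem] at h3 ⊢
      exact a.injective h3
    set f := x⁻¹ * a x with hf
    have hfF : f ∈ F := (Subgroup.mul_mem_iff_of_index_two h2).mpr (by
      constructor
      · intro h4; exact absurd (by simpa using h4) hx
      · intro h4; exact absurd h4 h3)
    have hax : a x = x * f := by rw [hf]; group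
    have hpow : ∀ k : ℕ, (a ^ k) x = x * f ^ k := by
      intro k
      induction k with
      | zero => simp
      | succ k ih =>
        rw [pow_succ', MulAut.mul_apply, ih, map_mul, hax, map_pow, (hmem f).mp hfF, pow_succ']
        group
    have h4 := hpow (orderOf a)
    rw [pow_orderOf_eq_one, MulAut.one_apply] at h4
    have h5 : f ^ orderOf a = 1 := by
      have : x * 1 = x * f ^ orderOf a := by rw [mul_one]; exact h4
      exact (mul_left_cancel this).symm
    obtain ⟨k, hk⟩ := hP f
    have h6 : orderOf f ∣ orderOf a := orderOf_dvd_of_pow_eq_one h5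
    have h7 : orderOf f ∣ 2 ^ k := orderOf_dvd_of_pow_eq_one hk
    have h8 : Nat.Coprime (2 ^ k) (orderOf a) := Nat.Coprime.pow_left _ (Nat.coprime_two_left.mpr hodd)
    have h9 := Nat.eq_one_of_dvd_coprimes h8 h7 h6
    rw [orderOf_eq_one_iff] at h9
    rw [h9, mul_one] at hax
    exact hx ((hmem x).mpr hax)
  have hp : Fact (Nat.Prime 2) := ⟨Nat.prime_two⟩
  obtain ⟨n, hn⟩ := (hP.index F)
  have hpi : 4 ≤ F.index := by
    rw [hn] at h1 h2 ⊢
    have hn0 : n ≠ 0 := by rintro rfl; exact h1 rfl
    have hn1 : n ≠ 1 := by rintro rfl; exact h2 rfl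
    calc 4 = 2 ^ 2 := by norm_num
      _ ≤ 2 ^ n := Nat.pow_le_pow_right (by norm_num) (by omega)
  rw [← hF, ← F.card_mul_index, mul_comm]
  exact Nat.mul_le_mul_left _ hpi

theorem Odd.three_le_index {M : Type*} [Group M] [Finite M] (hM : Odd (Nat.card M)) {K : Subgroup M} (hK : K ≠ ⊤) :
    3 * Nat.card K ≤ Nat.card M := by
  have h1 : K.index ≠ 1 := fun h => hK (Subgroup.index_eq_one.mp h)
  have h2 : Odd K.index := Odd.of_dvd_nat hM (Subgroup.index_dvd_card K)
  have h3 : 3 ≤ K.index := by
    obtain ⟨k, hk⟩ := h2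
    omega
  rw [← K.card_mul_index, mul_comm]
  exact Nat.mul_le_mul_left _ h3

/-- odd order group acting nontrivially on a 2-group: at most `|P| / 2` orbits -/
theorem orbit_bound_odd {M P : Type*} [Group M] [Finite M] [Group P] [Finite P] (hP : IsPGroup 2 P)
    (hM : Odd (Nat.card M)) (φ : M →* MulAut P) (hφ : φ ≠ 1) [MulAction M P]
    (hact : ∀ (m : M) (x : P), m • x = φ m x) :
    2 * Nat.card (Quotient (MulAction.orbitRel M P)) ≤ Nat.card P := by
  have hker : φ.ker ≠ ⊤ := by
    intro h
    apply hφ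
    ext m x
    have : m ∈ φ.ker := by rw [h]; trivial
    rw [MonoidHom.mem_ker] at this
    rw [this]; rfl
  have h1 := orbit_bound_gen φ hact 3 4 (by norm_num) (Odd.three_le_index hM hker) (by
    intro m hm
    apply card_fixed_le_four hP
    · intro h
      exact hm (MonoidHom.mem_ker.mpr h)
    · exact Odd.of_dvd_nat hM ((orderOf_map_dvd φ m).trans (_root_.orderOf_dvd_natCard m)))
  omega

/-- if `G` is not `2`-nilpotent, some `Q` containing `Z(P)` has a nontrivial odd automorphism -/
theorem exists_centric {G : Type*} [Group G] [Finite G] {p : ℕ} [hp : Fact p.Prime] (P : Sylow p G)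
    (h : ¬ Cfsg.HasNormalPComplement p G) :
    ∃ Q : Subgroup G, Q ≤ P ∧ (P : Subgroup G) ⊓ centralizer ((P : Subgroup G) : Set G) ≤ Q ∧
      ∃ g ∈ normalizer (Q : Set G), (orderOf g).Coprime p ∧ g ∉ centralizer (Q : Set G) := by
  classical
  let S : Set (Subgroup G) := {Q | IsPGroup p Q ∧ ∃ g ∈ normalizer (Q : Set G), (orderOf g).Coprime p ∧ g ∉ centralizer (Q : Set G)}
  have hSne : S.Nonempty := by
    by_contra hne
    apply h
    apply H2.Fusion3.npc_of_frobenius
    intro Q hQ g hg hgp
    by_contra hgc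
    exact hne ⟨Q, hQ, g, hg, hgp, hgc⟩
  obtain ⟨Q, ⟨hQp, g, hg, hgp, hgc⟩, hmax⟩ := Set.Finite.exists_maximalFor (fun Q : Subgroup G => Nat.card Q) S (Set.toFinite S) hSne
  -- Sylow p-subgroup of the centralizer
  set C := centralizer (Q : Set G) with hC
  obtain ⟨W0⟩ : Nonempty (Sylow p C) := inferInstance
  set W := (W0 : Subgroup C).map C.subtype with hW
  have hWC : W ≤ C := map_subtype_le _
  have hWp : IsPGroup p W := W0.isPGroup'.map _
  have hWc : Nat.card W = p ^ (Nat.card C).factorization p := H1.Coprime.card_map_sylow W0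
  have hNC : ∀ n ∈ normalizer (Q : Set G), H22.Basic.cj n C = C := by
    intro n hn
    rw [hC, ← H22.Basic.centralizer_cj, H22.Basic.cj_eq_of_mem_normalizer hn]
  have hcjW : H22.Basic.cj g W ≤ C := by
    rw [← hNC g hg]; exact H22.Basic.cj_mono hWC
  obtain ⟨c, hc, hcW⟩ := H1.Coprime.exists_conj_of_card_eq (p := p) hcjW hWC
    (by rw [H22.Basic.card_cj, hWc]) hWc
  have hcW' : H22.Basic.cj (c * g) W = W := by
    rw [H22.Basic.cj_mul]; exact hcW
  set g' := c * g with hg'
  have hg'W : g' ∈ normalizer (W : Set G) := H22.Basic.mem_normalizer_iff_cj.mpr hcW'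
  have hg'Q : g' ∈ normalizer (Q : Set G) := mul_mem (centralizer_le_normalizer _ hc) hg
  -- odd part
  set j := (orderOf g').factorization p with hj
  set g2 := g' ^ (p ^ j) with hg2
  have hg2p : (orderOf g2).Coprime p := by
    have h1 : orderOf g2 = orderOf g' / p ^ j := by
      rw [hg2]; exact orderOf_pow_of_dvd (pow_ne_zero _ hp.out.ne_zero) (Nat.ordProj_dvd _ _)
    rw [h1, Nat.coprime_comm, Nat.Prime.coprime_iff_not_dvd hp.out]
    exact Nat.not_dvd_ordCompl hp.out (orderOf_pos g').ne'
  have hg2c : g2 ∉ C := by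
    intro h1
    apply hgc
    -- g^(p^j) ∈ C
    have hCn : (C.subgroupOf (normalizer (Q : Set G))).Normal := by
      rw [normal_subgroupOf_iff_le_normalizer (centralizer_le_normalizer _)]
      intro n hn
      rw [H22.Basic.mem_normalizer_iff_cj]
      exact hNC n hn
    let N := normalizer (Q : Set G)
    let π := QuotientGroup.mk' (C.subgroupOf N)
    have hπ : ∀ n : N, π n = 1 ↔ (n : G) ∈ C := by
      intro n
      rw [← MonoidHom.mem_ker, QuotientGroup.ker_mk', mem_subgroupOf]
    have h2 : π ⟨g', hg'Q⟩ = π ⟨g, hg⟩ := by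
      have : (⟨g', hg'Q⟩ : N) = ⟨c, centralizer_le_normalizer _ hc⟩ * ⟨g, hg⟩ := rfl
      rw [this, map_mul, (hπ _).mpr hc, one_mul]
    have h3 : (π ⟨g, hg⟩) ^ (p ^ j) = 1 := by
      rw [← h2, ← map_pow, hπ]
      exact h1
    have h4 : orderOf (π ⟨g, hg⟩) ∣ orderOf g := by
      have := orderOf_map_dvd π ⟨g, hg⟩
      rwa [Subgroup.orderOf_mk] at this
    have h5 : orderOf (π ⟨g, hg⟩) ∣ p ^ j := orderOf_dvd_of_pow_eq_one h3
    have h6 := Nat.eq_one_of_dvd_coprimes (Nat.Coprime.pow_right j hgp) h4 h5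
    rw [orderOf_eq_one_iff, hπ] at h6
    exact h6
  have hWQ : W ≤ Q := by
    have h1 : (Q ⊔ W) ∈ S := by
      refine ⟨?_, g2, ?_, hg2p, ?_⟩
      · exact IsPGroup.to_sup_of_normal_left' hQp hWp (hWC.trans (centralizer_le_normalizer _))
      · rw [H22.Basic.mem_normalizer_iff_cj, H22.Basic.cj_sup,
          H22.Basic.cj_eq_of_mem_normalizer (pow_mem hg'Q _), H22.Basic.cj_eq_of_mem_normalizer (pow_mem hg'W _)]
      · intro h2
        exact hg2c (centralizer_le (show (Q : Set G) ⊆ ((Q ⊔ W : Subgroup G) : Set G) from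
          SetLike.coe_subset_coe.mpr le_sup_left) h2)
    have h2 := hmax h1 (H22.Basic.card_le_of_le le_sup_left)
    have h3 : Q = Q ⊔ W := H22.Basic.eq_of_le_of_card_le le_sup_left h2
    rw [h3]; exact le_sup_right
  -- conjugate into P
  obtain ⟨R, hR⟩ := hQp.exists_le_sylow
  obtain ⟨t, ht⟩ := MulAction.exists_smul_eq G R P
  have htP : H22.Basic.cj t Q ≤ P := by
    have : (P : Subgroup G) = H22.Basic.cj t (R : Subgroup G) := by rw [← ht]; rfl
    rw [this]; exact H22.Basic.cj_mono hR
  refine ⟨H22.Basic.cj t Q, htP, ?_, t * g * t⁻¹, ?_, ?_, ?_⟩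
  · -- Z(P) ≤ Q^t
    set Z := (P : Subgroup G) ⊓ centralizer ((P : Subgroup G) : Set G) with hZ
    have hZC : Z ≤ centralizer ((H22.Basic.cj t Q : Subgroup G) : Set G) :=
      inf_le_right.trans (centralizer_le htP)
    have hWt : H22.Basic.cj t W ≤ P := (H22.Basic.cj_mono hWQ).trans htP
    have hWtC : H22.Basic.cj t W ≤ centralizer ((H22.Basic.cj t Q : Subgroup G) : Set G) := by
      rw [H22.Basic.centralizer_cj]; exact H22.Basic.cj_mono hWC
    have hsupC : H22.Basic.cj t W ⊔ Z ≤ centralizer ((H22.Basic.cj t Q : Subgroup G) : Set G) := sup_le hWtC hZC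
    have hsupp : IsPGroup p (H22.Basic.cj t W ⊔ Z : Subgroup G) := P.isPGroup'.to_le (sup_le hWt inf_le_left)
    have hcard : Nat.card (H22.Basic.cj t W ⊔ Z : Subgroup G) ≤ Nat.card (H22.Basic.cj t W) := by
      obtain ⟨k, hk⟩ := IsPGroup.iff_card.mp hsupp
      rw [H22.Basic.card_cj, hWc, hk]
      apply Nat.pow_le_pow_right hp.out.pos
      have h1 : p ^ k ∣ Nat.card C := by
        rw [← hk]
        have h2 := card_dvd_of_le hsupC
        rwa [H22.Basic.centralizer_cj, H22.Basic.card_cj] at h2
      exact (hp.out.pow_dvd_iff_le_factorization Nat.card_pos.ne').mp h1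
    have h1 : H22.Basic.cj t W = H22.Basic.cj t W ⊔ Z := H22.Basic.eq_of_le_of_card_le le_sup_left hcard
    have h2 : Z ≤ H22.Basic.cj t W := by rw [h1]; exact le_sup_right
    exact h2.trans (H22.Basic.cj_mono hWQ)
  · rw [H22.Basic.normalizer_cj]
    exact H22.Basic.conj_mem_cj hg
  · have : orderOf (t * g * t⁻¹) = orderOf g :=
      orderOf_injective (MulAut.conj t).toMonoidHom (MulAut.conj t).injective g
    rw [this]; exact hgp
  · rw [H22.Basic.centralizer_cj, H22.Basic.conj_mem_cj_iff]
    exact hgc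

end Cfsg.Agent.H22.ClassCount
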