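import Cfsg.Agent.H22_HH6

/-!
# Small coprime modules: a `p`-group all of whose derived elements act as "reflections"
-/

set_option autoImplicit false
set_option linter.unusedSectionVars false
set_option linter.style.haveILetI false

namespace Cfsg.Agent.H22.DL1

open Subgroup
open scoped commutatorElement

section

variable {U : Type*} [CommGroup U] [Finite U]

/-- the image `[U,a]` -/
def Im (a : MulAut U) : Subgroup U :=
  (MonoidHom.mk' (fun u : U => a u * u⁻¹) (by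
    intro x y
    rw [map_mul, mul_inv, mul_mul_mul_comm]) : U →* U).range

/-- the fixed points -/
def Fx (a : MulAut U) : Subgroup U :=
  (MonoidHom.mk' (fun u : U => a u * u⁻¹) (by
    intro x y
    rw [map_mul, mul_inv, mul_mul_mul_comm]) : U →* U).ker

lemma mem_Im {a : MulAut U} {x : U} : x ∈ Im a ↔ ∃ u, a u * u⁻¹ = x := Iff.rfl

lemma mem_Fx {a : MulAut U} {x : U} : x ∈ Fx a ↔ a x = x := by
  show a x * x⁻¹ = 1 ↔ _
  rw [mul_inv_eq_one]

lemma card_eq (a : MulAut U) : Nat.card (Fx a) * Nat.card (Im a) = Nat.card U := by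
  unfold Im Fx
  rw [← Subgroup.index_ker, Subgroup.card_mul_index]

lemma Im_inv {a c : MulAut U} (h : a * c = c * a) {x : U} (hx : x ∈ Im a) : c x ∈ Im a := by
  obtain ⟨u, rfl⟩ := mem_Im.mp hx
  refine mem_Im.mpr ⟨c u, ?_⟩
  have : a (c u) = c (a u) := congrArg (fun f : MulAut U => f u) h
  rw [this, map_mul, map_inv]

lemma Im_bot {a : MulAut U} (h : Im a = ⊥) : a = 1 := by
  ext u
  have h1 : a u * u⁻¹ ∈ Im a := ⟨u, rfl⟩
  rw [h, mem_bot, mul_inv_eq_one] at h1
  exact h1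

lemma Im_inf_Fx {p : ℕ} (hp : p.Prime) (hU : (Nat.card U).Coprime p) {a : MulAut U} (ha : a ^ p = 1) :
    Im a ⊓ Fx a = ⊥ := by
  rw [eq_bot_iff]
  intro x hx
  obtain ⟨h1, h2⟩ := mem_inf.mp hx
  obtain ⟨u, hu⟩ := mem_Im.mp h1
  rw [mem_Fx] at h2
  have h3 : a u = x * u := by rw [← hu]; group
  have h4 : ∀ i : ℕ, (a ^ i) u = x ^ i * u := by
    intro i
    induction i with
    | zero => simp
    | succ i ih =>
      rw [pow_succ' a, MulAut.mul_apply, ih, map_mul, map_pow, h2, h3, pow_succ, mul_assoc]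
  have h5 := h4 p
  rw [ha, MulAut.one_apply] at h5
  have h6 : x ^ p = 1 := (mul_eq_right.mp h5.symm)
  have h7 : orderOf x ∣ Nat.gcd (Nat.card U) p :=
    Nat.dvd_gcd (orderOf_dvd_natCard x) (orderOf_dvd_of_pow_eq_one h6)
  rw [hU, Nat.dvd_one, orderOf_eq_one_iff] at h7
  exact mem_bot.mpr h7

/-- `|[U,a]| ≡ 1 mod p` -/
lemma card_Im_modEq {p : ℕ} [hp : Fact p.Prime] (hU : (Nat.card U).Coprime p) {a : MulAut U}
    (ha : a ^ p = 1) : p ∣ Nat.card (Im a) - 1 := by
  classical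
  have h1 : IsPGroup p (zpowers a) := by
    obtain ⟨k, -, hk⟩ := (Nat.dvd_prime_pow hp.out).mp
      (show orderOf a ∣ p ^ 1 by rw [pow_one]; exact orderOf_dvd_of_pow_eq_one ha)
    exact IsPGroup.of_card (by rw [Nat.card_zpowers, hk])
  let act : MulAction (zpowers a) (Im a) :=
    { smul := fun c x => ⟨c.1 x.1, Im_inv (by
        obtain ⟨j, hj⟩ := mem_zpowers_iff.mp c.2
        rw [← hj]
        exact ((Commute.refl a).zpow_right j)) x.2⟩
      one_smul := fun x => rfl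
      mul_smul := fun c d x => rfl }
  have h2 := h1.card_modEq_card_fixedPoints (Im a)
  have h3 : MulAction.fixedPoints (zpowers a) (Im a) = {1} := by
    ext x
    constructor
    · intro hx
      have h4 : a x.1 = x.1 := congrArg Subtype.val (hx ⟨a, mem_zpowers a⟩)
      have h5 : x.1 ∈ Im a ⊓ Fx a := mem_inf.mpr ⟨x.2, mem_Fx.mpr h4⟩
      rw [Im_inf_Fx hp.out hU ha] at h5
      exact Subtype.ext (mem_bot.mp h5)
    · rintro rfl c
      apply Subtype.ext
      show c.1 1 = 1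
      exact map_one _
  rw [h3] at h2
  have h5 : Nat.card (Im a) ≡ 1 [MOD p] := by
    simpa using h2
  exact (Nat.modEq_iff_dvd' Nat.card_pos).mp h5.symm

lemma num1 {p f m : ℕ} (hp : 3 ≤ p) (hf : 0 < f) (hm : p ∣ m - 1) (hm1 : 1 < m)
    (h : (p - 2) * (f * m) ≤ 2 * ((p - 1) * f)) : p = 3 ∧ m = 4 := by
  obtain ⟨c, hc⟩ := hm
  have hc1 : 1 ≤ c := by
    by_contra hcon
    have : c = 0 := by omega
    rw [this, mul_zero] at hc
    omega
  have h1 : (p - 2) * m ≤ 2 * (p - 1) := by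
    apply Nat.le_of_mul_le_mul_left _ hf
    calc f * ((p - 2) * m) = (p - 2) * (f * m) := by ring
      _ ≤ 2 * ((p - 1) * f) := h
      _ = f * (2 * (p - 1)) := by ring
  have hmc : m = p * c + 1 := by omega
  obtain ⟨t, rfl⟩ : ∃ t, p = t + 3 := ⟨p - 3, by omega⟩
  have e1 : t + 3 - 2 = t + 1 := by omega
  have e2 : t + 3 - 1 = t + 2 := by omega
  rw [e1, e2, hmc] at h1
  have ht : t = 0 := by
    by_contra ht
    have : 1 ≤ t := Nat.one_le_iff_ne_zero.mpr ht
    nlinarith [Nat.mul_le_mul_left (t + 3) hc1]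
  subst ht
  have : c = 1 := by omega
  subst this
  omega

/-- two commuting reflections with the same product property have the same image -/
lemma Im_eq (hU : (Nat.card U).Coprime 3) {a c : MulAut U} (ha3 : a ^ 3 = 1) (hc3 : c ^ 3 = 1)
    (hac : a * c = c * a) (ha : Nat.card (Im a) = 4) (hc : Nat.card (Im c) = 4)
    (hcc : Nat.card (Im (a * c)) ≤ 4) : Im a = Im c := by
  classical
  haveI : Fact (Nat.Prime 3) := ⟨Nat.prime_three⟩
  by_contra hne
  -- intersection trivial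
  have hint : Im a ⊓ Im c = ⊥ := by
    by_contra h0
    have h1 : Nat.card (Im a ⊓ Im c : Subgroup U) ∣ 4 := by rw [← ha]; exact card_dvd_of_le inf_le_left
    have h2 : Nat.card (Im a ⊓ Im c : Subgroup U) ≠ 1 := fun h => h0 (card_eq_one.mp h)
    have h3 : Nat.card (Im a ⊓ Im c : Subgroup U) ≠ 4 := by
      intro h
      apply hne
      have e1 : Im a ⊓ Im c = Im a := H22.Basic.eq_of_le_of_card_le inf_le_left (by rw [h, ha])
      have e2 : Im a ⊓ Im c = Im c := H22.Basic.eq_of_le_of_card_le inf_le_right (by rw [h, hc])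
      rw [← e1, e2]
    have h4 : Nat.card (Im a ⊓ Im c : Subgroup U) = 2 := by
      have := (Nat.dvd_prime_pow Nat.prime_two (m := 2)).mp h1
      obtain ⟨k, hk, hk2⟩ := this
      interval_cases k
      · exact absurd hk2 h2
      · simpa using hk2
      · exact absurd hk2 h3
    obtain ⟨z, hz⟩ := exists_prime_orderOf_dvd_card' 2 (show 2 ∣ Nat.card (Im a ⊓ Im c : Subgroup U) by rw [h4])
    have hz1 : z ≠ 1 := by
      rintro rfl
      rw [orderOf_one] at hz
      exact absurd hz (by norm_num)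
    have hinv : a z.1 ∈ Im a ⊓ Im c :=
      mem_inf.mpr ⟨Im_inv rfl (mem_inf.mp z.2).1, Im_inv hac.symm (mem_inf.mp z.2).2⟩
    have h5 : (⟨a z.1, hinv⟩ : (Im a ⊓ Im c : Subgroup U)) = z := by
      have h6 : Nat.card (Im a ⊓ Im c : Subgroup U) = 2 := h4
      have h7 : ∀ w : (Im a ⊓ Im c : Subgroup U), w = 1 ∨ w = z := by
        intro w
        have h8 : w ∈ zpowers z := by
          have : zpowers z = ⊤ := by
            apply eq_top_of_card_eq
            rw [Nat.card_zpowers, hz, h6]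
          rw [this]; exact mem_top _
        obtain ⟨j, hj⟩ := mem_zpowers_iff.mp h8
        have hz2 : z ^ 2 = 1 := by rw [← hz]; exact pow_orderOf_eq_one z
        rcases Int.even_or_odd' j with ⟨i, hi | hi⟩
        · left
          rw [← hj, hi, zpow_mul]
          have : z ^ (2 : ℤ) = 1 := by exact_mod_cast hz2
          rw [this, one_zpow]
        · right
          rw [← hj, hi, zpow_add, zpow_mul, zpow_one]
          have : z ^ (2 : ℤ) = 1 := by exact_mod_cast hz2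
          rw [this, one_zpow, one_mul]
      rcases h7 ⟨a z.1, hinv⟩ with h | h
      · exfalso
        apply hz1
        have h9 : a z.1 = 1 := congrArg Subtype.val h
        exact Subtype.ext (a.injective (by rw [h9]; simp))
      · exact h
    have h6 : z.1 ∈ Im a ⊓ Fx a := mem_inf.mpr ⟨(mem_inf.mp z.2).1, mem_Fx.mpr (congrArg Subtype.val h5)⟩
    rw [Im_inf_Fx Nat.prime_three hU ha3] at h6
    exact hz1 (Subtype.ext (mem_bot.mp h6))
  -- each acts trivially on the image of the other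
  have hca : ∀ x ∈ Im a, c x = x := by
    intro x hx
    have h1 : c x * x⁻¹ ∈ Im a ⊓ Im c :=
      mem_inf.mpr ⟨(Im a).mul_mem (Im_inv hac hx) ((Im a).inv_mem hx), ⟨x, rfl⟩⟩
    rw [hint, mem_bot, mul_inv_eq_one] at h1
    exact h1
  have hacx : ∀ x ∈ Im c, a x = x := by
    intro x hx
    have h1 : a x * x⁻¹ ∈ Im a ⊓ Im c :=
      mem_inf.mpr ⟨⟨x, rfl⟩, (Im c).mul_mem (Im_inv hac.symm hx) ((Im c).inv_mem hx)⟩
    rw [hint, mem_bot, mul_inv_eq_one] at h1
    exact h1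
  -- surjectivity of `a - 1` on `Im a`
  have hsurj : ∀ (a : MulAut U), a ^ 3 = 1 → ∀ x ∈ Im a, ∃ y ∈ Im a, a y * y⁻¹ = x := by
    intro a ha3
    let f : Im a → Im a := fun y => ⟨a y.1 * y.1⁻¹, (Im a).mul_mem (Im_inv rfl y.2) ((Im a).inv_mem y.2)⟩
    have hf : Function.Injective f := by
      intro y z hyz
      have h1 : a y.1 * y.1⁻¹ = a z.1 * z.1⁻¹ := congrArg Subtype.val hyz
      have h2 : y.1 * z.1⁻¹ ∈ Im a ⊓ Fx a := by
        refine mem_inf.mpr ⟨(Im a).mul_mem y.2 ((Im a).inv_mem z.2), ?_⟩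
        rw [mem_Fx, map_mul, map_inv]
        calc a y.1 * (a z.1)⁻¹ = (a y.1 * y.1⁻¹) * (a z.1 * z.1⁻¹)⁻¹ * (y.1 * z.1⁻¹) := by
              rw [mul_inv, inv_inv]
              have : a y.1 * y.1⁻¹ * ((a z.1)⁻¹ * z.1) * (y.1 * z.1⁻¹) =
                a y.1 * (a z.1)⁻¹ * (y.1⁻¹ * y.1) * (z.1 * z.1⁻¹) := by
                  simp only [mul_assoc, mul_left_comm, mul_comm]
              rw [this, inv_mul_cancel, mul_inv_cancel, mul_one, mul_one]
          _ = y.1 * z.1⁻¹ := by rw [h1, mul_inv_cancel, one_mul]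
      rw [Im_inf_Fx Nat.prime_three hU ha3, mem_bot, mul_inv_eq_one] at h2
      exact Subtype.ext h2
    intro x hx
    obtain ⟨y, hy⟩ := (Finite.injective_iff_surjective.mp hf) ⟨x, hx⟩
    exact ⟨y.1, y.2, congrArg Subtype.val hy⟩
  have hle1 : Im a ≤ Im (a * c) := by
    intro x hx
    obtain ⟨y, hy, hyx⟩ := hsurj a ha3 x hx
    refine mem_Im.mpr ⟨y, ?_⟩
    rw [MulAut.mul_apply, hca y hy, hyx]
  have hle2 : Im c ≤ Im (a * c) := by
    intro x hx
    obtain ⟨y, hy, hyx⟩ := hsurj c hc3 x hx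
    refine mem_Im.mpr ⟨y, ?_⟩
    rw [MulAut.mul_apply, hacx _ (Im_inv rfl hy), hyx]
  have h1 : Nat.card (Im a ⊔ Im c : Subgroup U) = 4 * 4 := by
    rw [H22.Basic.card_sup_of_inf_eq_bot (le_normalizer_of_normal) hint, ha, hc]
  have h2 : Nat.card (Im a ⊔ Im c : Subgroup U) ≤ Nat.card (Im (a * c)) :=
    card_le_of_le (sup_le hle1 hle2)
  omega

/-- **Lemma Z** -/
theorem trivial_of {p : ℕ} [hp : Fact p.Prime] (hp2 : p ≠ 2) (hU : (Nat.card U).Coprime p)
    (B : Subgroup (MulAut U)) (hB : IsPGroup p B)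
    (hab : ∀ a ∈ ⁅B, B⁆, ∀ c ∈ ⁅B, B⁆, a * c = c * a) (hexp : ∀ a ∈ ⁅B, B⁆, a ^ p = 1)
    (hin : ∀ a ∈ ⁅B, B⁆, a ≠ 1 → p * Nat.card U ≤ 2 * (Nat.card U + (p - 1) * Nat.card (Fx a))) :
    ⁅B, B⁆ = ⊥ := by
  classical
  by_contra hne
  obtain ⟨a₀, ha₀, ha₀1⟩ := (bot_or_exists_ne_one ⁅B, B⁆).resolve_left hne
  have hp3 : 3 ≤ p := by
    have := hp.out.two_le
    omega
  have hcard : ∀ a ∈ ⁅B, B⁆, a ≠ 1 → p = 3 ∧ Nat.card (Im a) = 4 := by
    intro a ha ha1
    have h1 := hin a ha ha1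
    have h2 := card_eq a
    apply num1 hp3 (Nat.card_pos (α := Fx a)) (card_Im_modEq hU (hexp a ha))
    · rw [one_lt_card_iff_ne_bot]
      intro h; exact ha1 (Im_bot h)
    · rw [h2]
      obtain ⟨t, ht⟩ : ∃ t, p = t + 2 := ⟨p - 2, by omega⟩
      rw [ht] at h1 ⊢
      have e1 : t + 2 - 2 = t := by omega
      rw [e1]
      nlinarith
  obtain ⟨rfl, h4⟩ := hcard a₀ ha₀ ha₀1
  have hle4 : ∀ a ∈ ⁅B, B⁆, Nat.card (Im a) ≤ 4 := by
    intro a ha
    by_cases ha1 : a = 1
    · have : Im a = ⊥ := by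
        rw [ha1, eq_bot_iff]
        rintro _ ⟨u, rfl⟩
        show (1 : MulAut U) u * u⁻¹ ∈ _
        simp
      rw [this, card_bot]; norm_num
    · exact (hcard a ha ha1).2.le
  -- `Im a₀` is `B`-invariant
  have hBn : B ≤ normalizer ((⁅B, B⁆ : Subgroup (MulAut U)) : Set (MulAut U)) :=
    H22.Basic.le_normalizer_commutator le_normalizer le_normalizer
  have hinv : ∀ b ∈ B, ∀ x ∈ Im a₀, b x ∈ Im a₀ := by
    intro b hb x hx
    set c := b * a₀ * b⁻¹ with hc
    have hcB : c ∈ ⁅B, B⁆ := (Subgroup.mem_normalizer_iff.mp (hBn hb) _).mp ha₀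
    have hc1 : c ≠ 1 := by
      intro h
      apply ha₀1
      rw [hc, mul_inv_eq_one] at h
      exact mul_eq_left.mp h
    have h5 : Im a₀ = Im c := Im_eq hU (hexp a₀ ha₀) (hexp c hcB) (hab _ ha₀ _ hcB) h4 (hcard c hcB hc1).2
      (hle4 _ (mul_mem ha₀ hcB))
    rw [h5]
    obtain ⟨u, rfl⟩ := mem_Im.mp hx
    refine mem_Im.mpr ⟨b u, ?_⟩
    rw [hc, MulAut.mul_apply, MulAut.mul_apply, MulAut.inv_apply_self _ b u, map_mul, map_inv]
  -- the action on `Im a₀`
  let F : B →* Equiv.Perm (Im a₀) :=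
    { toFun := fun b => ⟨fun x => ⟨b.1 x.1, hinv b.1 b.2 x.1 x.2⟩,
        fun x => ⟨(b⁻¹ : B).1 x.1, hinv _ (b⁻¹ : B).2 x.1 x.2⟩,
        fun x => Subtype.ext (MulAut.inv_apply_self _ b.1 x.1), fun x => Subtype.ext (MulAut.apply_inv_self _ b.1 x.1)⟩
      map_one' := rfl
      map_mul' := fun b c => rfl }
  have hrange : Nat.card F.range ∣ 3 := by
    have h5 : IsPGroup 3 F.range := hB.of_surjective F.rangeRestrict F.rangeRestrict_surjective
    obtain ⟨k, hk⟩ := IsPGroup.iff_card.mp h5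
    have h6 : Nat.card F.range ∣ Nat.card (Equiv.Perm (Im a₀)) := card_subgroup_dvd_card _
    have h7 : Nat.card (Equiv.Perm (Im a₀)) = 24 := by
      rw [Nat.card_perm, h4]; rfl
    rw [h7, hk] at h6
    rw [hk]
    have : k ≤ 1 := by
      by_contra hcon
      have h8 : 3 ^ 2 ∣ 24 := (pow_dvd_pow 3 (by omega)).trans h6
      revert h8; norm_num
    exact (pow_dvd_pow 3 this).trans (by norm_num)
  have hcomm : ∀ b c : B, F b * F c = F c * F b := by
    have h5 : IsCyclic F.range := by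
      rcases (Nat.dvd_prime Nat.prime_three).mp hrange with h | h
      · haveI : Subsingleton F.range := (Nat.card_eq_one_iff_unique.mp h).1
        exact isCyclic_of_subsingleton
      · exact isCyclic_of_prime_card (p := 3) h
    intro b c
    have h6 : IsMulCommutative F.range := inferInstance
    exact congrArg Subtype.val (mul_comm' (⟨F b, b, rfl⟩ : F.range) ⟨F c, c, rfl⟩)
  have htriv : ∀ a ∈ ⁅B, B⁆, ∀ x ∈ Im a₀, a x = x := by
    have h5 : ⁅B, B⁆ ≤ (F.ker).map B.subtype := by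
      rw [commutator_le]
      intro b hb c hc
      refine ⟨⁅(⟨b, hb⟩ : B), ⟨c, hc⟩⁆, ?_, rfl⟩
      rw [SetLike.mem_coe, MonoidHom.mem_ker, map_commutatorElement, commutatorElement_eq_one_iff_mul_comm]
      exact hcomm _ _
    intro a ha x hx
    obtain ⟨b, hb, hba⟩ := h5 ha
    have h6 : F b = 1 := hb
    have h7 := congrArg (fun f : Equiv.Perm (Im a₀) => ((f ⟨x, hx⟩ : Im a₀) : U)) h6
    have h8 : b.1 x = x := h7
    have h9 : b.1 = a := hba
    rwa [h9] at h8
  have h5 : Im a₀ ≤ ⊥ := by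
    rw [← Im_inf_Fx Nat.prime_three hU (hexp a₀ ha₀)]
    exact le_inf le_rfl (fun x hx => mem_Fx.mpr (htriv a₀ ha₀ x hx))
  rw [le_bot_iff] at h5
  exact ha₀1 (Im_bot h5)

end

end Cfsg.Agent.H22.DL1
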