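import Cfsg.Agent.H22_DL1

/-!
# Derived length and `p`-length: the critical configuration
-/

set_option autoImplicit false
set_option linter.unusedSectionVars false
set_option linter.style.haveILetI false

namespace Cfsg.Agent.H22.DL2

open Module Subgroup HH1 HH2 HH3 HH4
open scoped commutatorElement

universe u v w

/-- number of orbits of a group of prime order -/
lemma burn {U : Type*} [Group U] [Finite U] {p : ℕ} [hp : Fact p.Prime] (σ : MulAut U)
    (hσ : σ ^ p = 1) (hσ1 : σ ≠ 1) :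
    Nat.card (Quotient (MulAction.orbitRel (zpowers σ) U)) * p =
      Nat.card U + (p - 1) * Nat.card {u : U // σ u = u} := by
  classical
  letI : Fintype U := Fintype.ofFinite _
  letI : Fintype (zpowers σ) := Fintype.ofFinite _
  letI : ∀ a : zpowers σ, Fintype (MulAction.fixedBy U a) := fun a => Fintype.ofFinite _
  letI : Fintype (Quotient (MulAction.orbitRel (zpowers σ) U)) := Fintype.ofFinite _
  have hord : orderOf σ = p := orderOf_eq_prime hσ hσ1
  have hburn := MulAction.sum_card_fixedBy_eq_card_orbits_mul_card_group (zpowers σ) U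
  have hle : Nat.card {u : U // σ u = u} ≤ Nat.card U :=
    Nat.card_le_card_of_injective Subtype.val Subtype.val_injective
  have hfix : ∀ a : zpowers σ, Fintype.card (MulAction.fixedBy U a) =
      Nat.card {u : U // σ u = u} +
        if a = 1 then (Nat.card U - Nat.card {u : U // σ u = u}) else 0 := by
    intro a
    split_ifs with ha
    · have e1 : MulAction.fixedBy U a = Set.univ := by
        rw [ha]; ext q; simp
      rw [← Nat.card_eq_fintype_card, e1, Nat.card_univ]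
      omega
    · rw [add_zero, ← Nat.card_eq_fintype_card]
      have e1 : MulAction.fixedBy U a = {u | σ u = u} := by
        ext u
        constructor
        · intro hu
          haveI : Fact (Nat.card (zpowers σ)).Prime := ⟨by rw [Nat.card_zpowers, hord]; exact hp.out⟩
          have h1 : a ∈ MulAction.stabilizer (zpowers σ) u := hu
          rcases (MulAction.stabilizer (zpowers σ) u).eq_bot_or_eq_top_of_prime_card with h2 | h2
          · rw [h2] at h1
            exact absurd (mem_bot.mp h1) ha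
          · have h3 : (⟨σ, mem_zpowers σ⟩ : zpowers σ) ∈ MulAction.stabilizer (zpowers σ) u := by
              rw [h2]; exact mem_top _
            exact h3
        · intro hu
          have h1 : σ ∈ MulAction.stabilizer (MulAut U) u := hu
          have h2 : (a : MulAut U) ∈ MulAction.stabilizer (MulAut U) u := by
            have := zpowers_le.mpr h1
            exact this a.2
          exact h2
      rw [e1]
      rfl
  rw [Finset.sum_congr rfl (fun a _ => hfix a), Finset.sum_add_distrib, Finset.sum_const,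
    Finset.sum_ite_eq' Finset.univ (1 : zpowers σ), Finset.card_univ, smul_eq_mul,
    ← Nat.card_eq_fintype_card, ← Nat.card_eq_fintype_card, Nat.card_zpowers, hord] at hburn
  simp only [Finset.mem_univ, if_true] at hburn
  rw [← hburn]
  obtain ⟨t, ht⟩ : ∃ t, p = t + 1 := ⟨p - 1, by have := hp.out.pos; omega⟩
  rw [ht, Nat.add_sub_cancel, add_mul, one_mul]
  omega

/-- the inequality with an operator of prime order -/
theorem ineq {k : Type u} [Field k] {V : Type v} [AddCommGroup V] [Module k V]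
    [FiniteDimensional k V] [Nontrivial V] {Q : Type w} [Group Q] [Fintype Q]
    (ρ : Q →* Module.End k V) {U : Type*} [Group U] [Finite U] (π : Q →* U)
    (hπ : Function.Surjective π) (hZ : ∀ z ∈ π.ker, ∃ c : k, ρ z = algebraMap k _ c)
    (hcomm : ∀ g h : Q, ∃ c : k, ρ (g * h * g⁻¹ * h⁻¹) = algebraMap k _ c)
    (hnd : ∀ g : Q, g ∉ π.ker → ∃ h : Q, ρ (h * g * h⁻¹ * g⁻¹) ≠ 1)
    (hk : (Nat.card Q : k) ≠ 0) (φ : MulAut Q) (x : Module.End k V) (hx : IsUnit x)
    (hxρ : ∀ g, x * ρ g = ρ (φ g) * x) (l : List k) (hl : lprod x l = 0)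
    {p : ℕ} [hp : Fact p.Prime] (σ : MulAut U) (hσφ : ∀ g, σ (π g) = π (φ g))
    (hσ : σ ^ p = 1) (hσ1 : σ ≠ 1) :
    p * Nat.card U ≤ l.length * (Nat.card U + (p - 1) * Nat.card {u : U // σ u = u}) := by
  classical
  have hσi : ∀ (i : ℕ) (g : Q), (σ ^ i) (π g) = π ((φ ^ i) g) := by
    intro i
    induction i with
    | zero => intro g; rfl
    | succ i ih =>
      intro g
      rw [pow_succ', pow_succ', MulAut.mul_apply, ih, MulAut.mul_apply, hσφ]
  let rep : (Quotient (MulAction.orbitRel (zpowers σ) U)) → Q := fun i => (hπ (Quotient.out i)).choose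
  have hrep0 : ∀ i, π (rep i) = Quotient.out i := fun i => (hπ (Quotient.out i)).choose_spec
  have hmain := main ρ π.ker hZ hcomm hnd hk φ x hx hxρ l hl rep (by
    intro g
    let i : Quotient (MulAction.orbitRel (zpowers σ) U) := Quotient.mk'' (π g)
    have h3 : (MulAction.orbitRel (zpowers σ) U) (Quotient.out i) (π g) := by
      have : Quotient.mk'' (Quotient.out i) = i := Quotient.out_eq' i
      exact Quotient.exact' this
    have h4 : (MulAction.orbitRel (zpowers σ) U) (π g) (Quotient.out i) := Setoid.symm' _ h3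
    rw [MulAction.orbitRel_apply] at h4
    obtain ⟨a, ha⟩ := h4
    obtain ⟨n, hn⟩ := (mem_powers_iff_mem_zpowers (x := σ)).mpr a.2
    refine ⟨i, n, ((φ ^ n) (rep i))⁻¹ * g, ?_, by group⟩
    have ha' : a.1 (Quotient.out i) = π g := ha
    have hn' : σ ^ n = a.1 := hn
    rw [MonoidHom.mem_ker, map_mul, map_inv, ← hσi, hrep0, hn', ha', inv_mul_cancel])
  have hidx : π.ker.index = Nat.card U := by
    rw [Subgroup.index_ker, MonoidHom.range_eq_top.mpr hπ, card_top]
  rw [hidx] at hmain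
  calc p * Nat.card U ≤ p * (l.length * Nat.card (Quotient (MulAction.orbitRel (zpowers σ) U))) :=
        Nat.mul_le_mul_left _ hmain
    _ = l.length * (Nat.card (Quotient (MulAction.orbitRel (zpowers σ) U)) * p) := by ring
    _ = _ := by rw [burn σ hσ hσ1]

lemma gen_of' {G : Type*} [Group G] {Q A : Subgroup G} (hA : A ≤ normalizer (Q : Set G))
    (h : ⁅Q, A⁆ = Q) (N : Subgroup Q) (hN : ∀ (a : G) (ha : a ∈ A) (g : Q), g⁻¹ * au (hA ha) g ∈ N) :
    N = ⊤ := by
  have h1 : ⁅Q, A⁆ ≤ N.map Q.subtype := by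
    rw [commutator_le]
    intro g hg y hy
    refine ⟨_, hN y hy (⟨g, hg⟩⁻¹ : Q), ?_⟩
    show ((g⁻¹)⁻¹ : G) * (y * g⁻¹ * y⁻¹) = ⁅g, y⁆
    rw [commutatorElement_def]
    group
  rw [eq_top_iff]
  intro g _
  have h2 : (g : G) ∈ N.map Q.subtype := h1 (h.symm ▸ g.2)
  obtain ⟨g', hg', he⟩ := h2
  have : g' = g := Subtype.ext he
  rwa [← this]

/-- odd order: `Stab φ²` implies `Stab φ` -/
lemma stab_of_sq {k : Type u} [Field k] {W : Type v} [AddCommGroup W] [Module k W]
    [FiniteDimensional k W] {Q : Type w} [Group Q] {σ : Q →* Module.End k W} (h : SIrr σ)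
    {φ : MulAut Q} {n : ℕ} (hn : Odd n) (hφ : φ ^ n = 1) (hs : Stab σ (φ ^ 2)) : Stab σ φ := by
  obtain ⟨m, hm⟩ := hn
  have h1 := stab_pow h hs (m + 1)
  have h2 : (φ ^ 2) ^ (m + 1) = φ := by
    rw [← pow_mul]
    have : 2 * (m + 1) = n + 1 := by omega
    rw [this, pow_succ, hφ, one_mul]
  rwa [h2] at h1

lemma map_eq_of {Q : Type*} [Group Q] [Finite Q] {Z : Subgroup Q} (φ : MulAut Q) (h : ∀ z ∈ Z, φ z ∈ Z) :
    Z.map (φ : Q ≃* Q).toMonoidHom = Z := by
  apply Subgroup.eq_of_le_of_card_ge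
  · rintro _ ⟨z, hz, rfl⟩
    exact h z hz
  · rw [Subgroup.card_map_of_injective (φ : Q ≃* Q).injective]

/-- the induced automorphism of the quotient -/
def qaut {Q : Type*} [Group Q] [Finite Q] {Z : Subgroup Q} [Z.Normal] (φ : MulAut Q)
    (h : ∀ z ∈ Z, φ z ∈ Z) : MulAut (Q ⧸ Z) :=
  QuotientGroup.congr Z Z φ (map_eq_of φ h)

lemma qaut_mk {Q : Type*} [Group Q] [Finite Q] {Z : Subgroup Q} [Z.Normal] (φ : MulAut Q)
    (h : ∀ z ∈ Z, φ z ∈ Z) (g : Q) : qaut φ h (g : Q ⧸ Z) = ((φ g : Q) : Q ⧸ Z) := rfl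

theorem core2 {k : Type u} [Field k] [IsAlgClosed k] {W : Type v} [AddCommGroup W] [Module k W]
    [FiniteDimensional k W] {Q : Type w} [Group Q] [Fintype Q] {σ : Q →* Module.End k W}
    (hσ : SIrr σ) (hcl : Cl2 Q) (hk : (Nat.card Q : k) ≠ 0) {p : ℕ} [hp : Fact p.Prime]
    (hp2 : p ≠ 2) {U : Type*} [CommGroup U] [Finite U] (hU : (Nat.card U).Coprime p) (π : Q →* U)
    (hπ : Function.Surjective π) (hker : π.ker = scal σ) {B : Type*} [Group B] (hB : IsPGroup p B)
    (θ : B →* MulAut U) (φ : B → MulAut Q) (hθ : ∀ b g, θ b (π g) = π (φ b g))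
    (hcomm : ∀ a ∈ commutator B, ∀ c ∈ commutator B, a * c = c * a)
    (hexp : ∀ a ∈ commutator B, a ^ p = 1)
    (hT : ∀ a ∈ commutator B, ∃ T : Module.End k W, IsUnit T ∧ (∀ g, T * σ g = σ (φ a g) * T) ∧
      (T - 1) * (T - 1) = 0) : ∀ a ∈ commutator B, θ a = 1 := by
  classical
  haveI := hσ.1
  have hmap : ⁅θ.range, θ.range⁆ = (commutator B).map θ := by
    rw [commutator_def, map_commutator, MonoidHom.range_eq_map]
  have h1 := DL1.trivial_of hp2 hU θ.range
    (hB.of_surjective θ.rangeRestrict θ.rangeRestrict_surjective) (by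
      rw [hmap]
      rintro _ ⟨a, ha, rfl⟩ _ ⟨c, hc, rfl⟩
      rw [← map_mul, hcomm a ha c hc, map_mul]) (by
      rw [hmap]
      rintro _ ⟨a, ha, rfl⟩
      rw [← map_pow, hexp a ha, map_one]) (by
      rw [hmap]
      rintro _ ⟨a, ha, rfl⟩ ha1
      obtain ⟨T, hTu, hTσ, hT1⟩ := hT a ha
      have h2 := ineq σ π hπ (by rw [hker]; exact fun z hz => hz)
        (fun g t => center_le_scal hσ (hcl g t)) (by rw [hker]; exact fun g hg => nondeg hσ g hg)
        hk (φ a) T hTu hTσ [1, 1] (by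
          rw [lprod_cons, lprod_cons, lprod_nil, map_one, mul_one, hT1]) (θ a) (fun g => hθ a g)
        (by rw [← map_pow, hexp a ha, map_one]) ha1
      have h3 : Nat.card (DL1.Fx (θ a)) = Nat.card {u : U // θ a u = u} :=
        Nat.card_congr (Equiv.subtypeEquivRight (fun u => DL1.mem_Fx))
      rw [h3]
      exact h2)
  intro a ha
  have h2 : θ a ∈ ⁅θ.range, θ.range⁆ := by rw [hmap]; exact ⟨a, ha, rfl⟩
  rw [h1] at h2
  exact mem_bot.mp h2

theorem core {G : Type u} [Group G] [Finite G] {p q : ℕ} [hp : Fact p.Prime] [hq : Fact q.Prime]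
    (hp2 : p ≠ 2) (hqp : q ≠ p) {k : Type w} [Field k] [IsAlgClosed k] [CharP k p] {M : Type v}
    [AddCommGroup M] [Module k M] [FiniteDimensional k M] (ρ : G →* Module.End k M)
    (hinj : Function.Injective ρ) (B Q : Subgroup G) (hB : IsPGroup p B) (hQ : IsPGroup q Q)
    (hBQ : B ≤ normalizer (Q : Set G))
    (hAA : ∀ a ∈ ⁅B, B⁆, ∀ c ∈ ⁅B, B⁆, (ρ a - 1) * (ρ c - 1) = 0)
    (hBBA : ∀ b ∈ B, ∀ a ∈ ⁅B, B⁆, (ρ b - 1) * ((ρ b - 1) * (ρ a - 1)) = 0)
    (hQA : ⁅Q, ⁅B, B⁆⁆ = Q) (hcl : Cl2 Q) : Q = ⊥ := by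
  classical
  by_contra hQ1
  haveI : Fintype Q := Fintype.ofFinite _
  have hAB : ⁅B, B⁆ ≤ B := commutator_le_self B
  obtain ⟨z, hz1⟩ : ∃ z : Q, z ≠ 1 := by
    obtain ⟨z, hz, hz1⟩ := (bot_or_exists_ne_one Q).resolve_left hQ1
    exact ⟨⟨z, hz⟩, fun h => hz1 (congrArg Subtype.val h)⟩
  have hk : (Nat.card Q : k) ≠ 0 := by
    obtain ⟨c, hc⟩ := IsPGroup.iff_card.mp hQ
    rw [hc, Nat.cast_pow]
    refine pow_ne_zero _ ?_
    intro h0
    rw [CharP.cast_eq_zero_iff k p] at h0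
    exact hqp ((Nat.prime_dvd_prime_iff_eq hp.out hq.out).mp h0).symm
  set τ : Q →* Module.End k M := ρ.comp Q.subtype with hτ
  obtain ⟨W, σ, hσ, hσρ, g₀, -, hg₀⟩ := exists_irr hk τ ⊤ ⟨z, mem_top _, fun h =>
    hz1 (Subtype.ext (hinj (by
      show ρ (z : G) = ρ (1 : G)
      rw [map_one]
      exact h)))⟩
  haveI := hσ.1
  -- exponent
  have hexp : ∀ a ∈ ⁅B, B⁆, a ^ p = 1 := by
    intro a ha
    apply hinj
    have h1 : (ρ a - 1) ^ p = 0 := by
      obtain ⟨t, ht⟩ : ∃ t, p = t + 2 := ⟨p - 2, by have := hp.out.two_le; omega⟩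
      rw [ht, pow_add, pow_two, hAA a ha a ha, mul_zero]
    have h2 := sub_one_pow p (ρ a) 1
    rw [pow_one, h1] at h2
    rw [map_pow, map_one]
    exact (sub_eq_zero.mp h2.symm)
  have hcomm : ∀ a ∈ ⁅B, B⁆, ∀ c ∈ ⁅B, B⁆, a * c = c * a := by
    intro a ha c hc
    apply hinj
    have h1 := hAA a ha c hc
    have h2 := hAA c hc a ha
    rw [sub_mul, mul_sub, one_mul, mul_one] at h1 h2
    rw [map_mul, map_mul]
    have h3 : ρ a * ρ c - ρ a - (ρ c - 1) = ρ c * ρ a - ρ c - (ρ a - 1) := by rw [h1, h2]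
    have h4 : ρ a * ρ c = (ρ a * ρ c - ρ a - (ρ c - 1)) + ρ a + ρ c - 1 := by abel
    have h5 : ρ c * ρ a = (ρ c * ρ a - ρ c - (ρ a - 1)) + ρ a + ρ c - 1 := by abel
    rw [h4, h5, h3]
  -- orders of elements of `B`
  have hodd : ∀ b ∈ B, ∃ n, Odd n ∧ b ^ n = 1 := by
    intro b hb
    obtain ⟨n, hn⟩ := hB ⟨b, hb⟩
    exact ⟨p ^ n, (hp.out.odd_of_ne_two hp2).pow, congrArg Subtype.val hn⟩
  have hX : ∀ (b : G) (hb : b ∈ B) (g : Q), ρ b * τ g = τ (au (hBQ hb) g) * ρ b := by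
    intro b hb g
    show ρ b * ρ g = ρ (b * g * b⁻¹) * ρ b
    rw [← map_mul, ← map_mul]
    congr 1
    group
  have hU : ∀ b : G, IsUnit (ρ b) := by
    intro b
    refine ⟨⟨ρ b, ρ b⁻¹, ?_, ?_⟩, rfl⟩
    · rw [← map_mul, mul_inv_cancel, map_one]
    · rw [← map_mul, inv_mul_cancel, map_one]
  -- projection argument
  have hproj : ∀ (b : G) (hb : b ∈ B) (m : W →ₗ[k] M), Function.Injective m →
      (∀ g w, m (σ g w) = τ g (m w)) → ¬ Stab σ (au (hBQ hb)) → ∀ w,
      (ρ b - 1) ((ρ b - 1) (m w)) = 0 → w = 0 := by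
    intro b hb m hmi hm hS w hw
    obtain ⟨P, hPm, hPρ⟩ := exists_proj hk τ m hmi hm
    obtain ⟨n, hn, hbn⟩ := hodd b hb
    have hS2 : ¬ Stab σ ((au (hBQ hb)) ^ 2) := fun h => hS (stab_of_sq hσ hn (au_one _ hbn) h)
    have h1 := proj_zero τ m hm P hPρ _ _ (hX b hb) (not_stab hS) w
    have h2 := proj_zero τ m hm P hPρ _ _ (pow_intertw τ _ _ (hX b hb) 2) (not_stab hS2) w
    have h3 : (ρ b - 1) ((ρ b - 1) (m w)) = (ρ b ^ 2) (m w) - ρ b (m w) - ρ b (m w) + m w := by
      rw [pow_two, Module.End.mul_apply]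
      simp only [LinearMap.sub_apply, Module.End.one_apply, map_sub]
      abel
    rw [h3] at hw
    have h4 := congrArg P hw
    rw [map_add, map_sub, map_sub, h1, h2, hPm, map_zero, sub_zero, sub_zero, zero_add] at h4
    exact h4
  have hSA : ∀ (a : G) (ha : a ∈ ⁅B, B⁆), Stab σ (au (hBQ (hAB ha))) := by
    intro a ha
    by_contra hcon
    obtain ⟨w, hw⟩ := exists_ne (0 : W)
    apply hw
    refine hproj a (hAB ha) W.subtype W.injective_subtype (fun g w => hσρ g w) hcon w ?_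
    rw [← Module.End.mul_apply, hAA a ha a ha]
    rfl
  -- extensions
  have hext : ∀ (b : G) (hb : b ∈ B), Stab σ (au (hBQ hb)) → ∃ (T : Module.End k W) (m : W →ₗ[k] M),
      IsUnit T ∧ (∀ g, T * σ g = σ (au (hBQ hb) g) * T) ∧
      Function.Injective m ∧ (∀ g w, m (σ g w) = τ g (m w)) ∧ (∀ w, ρ b (m w) = m (T w)) := by
    intro b hb hS
    obtain ⟨T₀, hT₀0, hT₀⟩ := hS
    exact extend hσ τ W.subtype (by
      intro h0
      obtain ⟨w, hw⟩ := exists_ne (0 : W)
      exact hw (Subtype.ext (congrArg (fun F => F w) h0))) (fun g w => hσρ g w) (au (hBQ hb)) (ρ b)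
      (hU b) (hX b hb) T₀ hT₀0 hT₀
  have hfin : ¬ ∀ (a : G) (ha : a ∈ ⁅B, B⁆) (g : Q), σ (au (hBQ (hAB ha)) g) = σ g := by
    intro hcon
    have h1 := gen_of' (hAB.trans hBQ) hQA σ.ker (by
      intro a ha g
      rw [MonoidHom.mem_ker, map_mul, hcon a ha g, ← map_mul, inv_mul_cancel, map_one])
    apply hg₀
    have h4 : g₀ ∈ σ.ker := by rw [h1]; exact Subgroup.mem_top _
    exact h4
  have hSB : ∀ (b : G) (hb : b ∈ B), Stab σ (au (hBQ hb)) := by
    intro b hb
    by_contra hcon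
    apply hfin
    intro a ha g
    obtain ⟨T, m, hTu, hTσ, hmi, hm, hXm⟩ := hext a (hAB ha) (hSA a ha)
    have hT1 : T = 1 := by
      refine LinearMap.ext fun w => ?_
      have h1 : (ρ b - 1) ((ρ b - 1) (m ((T - 1) w))) = 0 := by
        have h2 : m ((T - 1) w) = (ρ a - 1) (m w) := by
          rw [LinearMap.sub_apply, LinearMap.sub_apply, hXm, map_sub]; rfl
        rw [h2, ← Module.End.mul_apply, ← Module.End.mul_apply, mul_assoc, hBBA b hb a ha]
        rfl
      have h2 := hproj b hb m hmi hm hcon _ h1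
      rw [LinearMap.sub_apply, sub_eq_zero] at h2
      exact h2
    have h2 := hTσ g
    rw [hT1, one_mul, mul_one] at h2
    exact h2.symm
  -- the quotient
  set Z := scal σ with hZ
  haveI hZn : Z.Normal := scal_normal σ
  have hBZ : ∀ (b : G) (hb : b ∈ B), ∀ z ∈ Z, au (hBQ hb) z ∈ Z := by
    rintro b hb z ⟨c, hc⟩
    obtain ⟨T, m, hTu, hTσ, -⟩ := hext b hb (hSB b hb)
    refine ⟨c, ?_⟩
    have h3 := hTσ z
    rw [hc, ← Algebra.commutes] at h3
    exact (hTu.mul_left_inj.mp h3).symm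
  let θ : B →* MulAut (Q ⧸ Z) := MonoidHom.mk' (fun b => qaut (au (hBQ b.2)) (hBZ b.1 b.2)) (by
    intro b c
    ext x
    obtain ⟨g, rfl⟩ := QuotientGroup.mk_surjective x
    rw [MulAut.mul_apply, qaut_mk, qaut_mk, qaut_mk]
    congr 1
    apply Subtype.ext
    show ((b * c : B) : G) * g * ((b * c : B) : G)⁻¹ = (b : G) * ((c : G) * g * (c : G)⁻¹) * (b : G)⁻¹
    push_cast
    group)
  have hmc : (commutator B).map B.subtype = ⁅B, B⁆ := by
    rw [commutator_def, map_commutator, ← MonoidHom.range_eq_map, Subgroup.range_subtype]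
  have hmem : ∀ a : B, a ∈ commutator B → (a : G) ∈ ⁅B, B⁆ := by
    intro a ha
    rw [← hmc]
    exact ⟨a, ha, rfl⟩
  have hUp : (Nat.card (Q ⧸ Z)).Coprime p := by
    obtain ⟨n, hn⟩ := hQ.index Z
    change (Z.index).Coprime p
    rw [hn]
    exact Nat.Coprime.pow_left n ((Nat.coprime_primes hq.out hp.out).mpr hqp)
  let iU : CommGroup (Q ⧸ Z) := { (inferInstance : Group (Q ⧸ Z)) with
    mul_comm := by
      intro x y
      obtain ⟨g, rfl⟩ := QuotientGroup.mk_surjective x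
      obtain ⟨h, rfl⟩ := QuotientGroup.mk_surjective y
      show ((g * h : Q) : Q ⧸ Z) = ((h * g : Q) : Q ⧸ Z)
      rw [QuotientGroup.eq]
      have h1 := center_le_scal hσ (hcl g⁻¹ h⁻¹)
      have h2 := hZn.conj_mem _ h1 (h⁻¹ * g⁻¹)
      have h3 := center_le_scal hσ (hcl h⁻¹ g⁻¹)
      have e : (g * h)⁻¹ * (h * g) = h⁻¹ * g⁻¹ * h⁻¹⁻¹ * g⁻¹⁻¹ := by group
      rw [e]
      exact h3 }
  have htriv := @core2 k _ _ W _ _ _ Q _ _ σ hσ hcl hk p hp hp2 (Q ⧸ Z) iU _ hUp (QuotientGroup.mk' Z)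
    (QuotientGroup.mk'_surjective Z) (QuotientGroup.ker_mk' Z) B _ hB θ (fun b => au (hBQ b.2))
    (fun b g => rfl) (fun a ha c hc => Subtype.ext (hcomm a (hmem a ha) c (hmem c hc)))
    (fun a ha => Subtype.ext (hexp a (hmem a ha))) (by
      intro a ha
      obtain ⟨T, m, hTu, hTσ, hmi, hm, hXm⟩ := hext a a.2 (hSB a a.2)
      refine ⟨T, hTu, hTσ, ?_⟩
      refine LinearMap.ext fun w => hmi ?_
      have h2 : ∀ w, m ((T - 1) w) = (ρ a - 1) (m w) := by
        intro w
        rw [LinearMap.sub_apply, LinearMap.sub_apply, hXm, map_sub]; rfl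
      rw [Module.End.mul_apply, h2, h2, ← Module.End.mul_apply, hAA a (hmem a ha) a (hmem a ha)]
      simp)
  apply hfin
  intro a ha g
  obtain ⟨T, m, hTu, hTσ, hmi, hm, hXm⟩ := hext a (hAB ha) (hSA a ha)
  have h1 : Z = ⊤ := by
    apply gen_of' (hAB.trans hBQ) hQA Z
    intro a ha g
    have h2 : (⟨a, hAB ha⟩ : B) ∈ commutator B := by
      rw [← hmc] at ha
      obtain ⟨a', ha', he⟩ := ha
      have : (⟨a, hAB ‹_›⟩ : B) = a' := Subtype.ext he.symm
      rw [this]; exact ha'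
    have h3 := htriv _ h2
    have h4 := congrArg (fun f : MulAut (Q ⧸ Z) => f (g : Q ⧸ Z)) h3
    exact QuotientGroup.eq.mp (show ((g : Q) : Q ⧸ Z) = ((au (hBQ (hAB ha)) g : Q) : Q ⧸ Z) from h4.symm)
  have h2 : g ∈ Z := by rw [h1]; exact mem_top _
  obtain ⟨c, hc⟩ := h2
  have h3 := hTσ g
  rw [hc, ← Algebra.commutes] at h3
  rw [hc]
  exact (hTu.mul_left_inj.mp h3).symm

end Cfsg.Agent.H22.DL2
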