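import Mathlib

/-!
# An elementary inequality behind the Hall-Higman theorem

`HH1.sq_le`: if `∏ (x - c) = 0` over a list of length `s` then `(dim V)² ≤ s * dim C(x)`.
`HH1.main`: the inequality `|Q/Z| ≤ s * #orbits`.
`HH1.semireg`: the semiregular case `h * |Q/Z| ≤ s * (h + |Q/Z| - 1)`.
-/

set_option autoImplicit false
set_option linter.unusedSectionVars false

namespace Cfsg.Agent.H22.HH1

open Module

universe u v

section Comm

variable {k : Type u} [Field k] {V : Type v} [AddCommGroup V] [Module k V]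

/-- the commutant of `x` -/
def comm (x : Module.End k V) : Submodule k (Module.End k V) :=
  LinearMap.ker (LinearMap.mulLeft k x - LinearMap.mulRight k x)

lemma mem_comm {x f : Module.End k V} : f ∈ comm x ↔ x * f = f * x := by
  simp [comm, sub_eq_zero]

/-- the product of `x - c` over a list -/
def lprod (x : Module.End k V) (l : List k) : Module.End k V :=
  (l.map (fun c => x - algebraMap k (Module.End k V) c)).prod

lemma lprod_nil (x : Module.End k V) : lprod x [] = 1 := rfl

lemma lprod_cons (x : Module.End k V) (c : k) (l : List k) :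
    lprod x (c :: l) = (x - algebraMap k (Module.End k V) c) * lprod x l := by
  simp [lprod]

lemma commute_lprod (x : Module.End k V) (c : k) (l : List k) :
    Commute (x - algebraMap k (Module.End k V) c) (lprod x l) := by
  refine Commute.list_prod_right _ _ ?_
  intro y hy
  obtain ⟨d, -, rfl⟩ := List.mem_map.mp hy
  have h1 : Commute x x := Commute.refl x
  have h2 : Commute x (algebraMap k (Module.End k V) d) := (Algebra.commutes d x).symm
  have h3 : Commute (algebraMap k (Module.End k V) c) x := Algebra.commutes c x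
  have h4 : Commute (algebraMap k (Module.End k V) c) (algebraMap k (Module.End k V) d) :=
    Algebra.commutes c _
  exact (h1.sub_right h2).sub_left (h3.sub_right h4)

end Comm

section SqLe

variable {k : Type u} [Field k]

lemma step {V : Type v} [AddCommGroup V] [Module k V] [FiniteDimensional k V]
    {W : Type v} [AddCommGroup W] [Module k W] [FiniteDimensional k W]
    (x : Module.End k V) (c : k) (j : W →ₗ[k] V) (hj : Function.Injective j)
    (hW : LinearMap.range j = LinearMap.range (x - algebraMap k (Module.End k V) c))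
    (x' : Module.End k W) (hx' : ∀ w : W, j (x' w) = x (j w)) :
    (finrank k V - finrank k W) ^ 2 + finrank k (comm x') ≤ finrank k (comm x) := by
  classical
  set y : Module.End k V := x - algebraMap k (Module.End k V) c with hy
  obtain ⟨yr, hyr0⟩ : ∃ yr : V →ₗ[k] W, ∀ v, j (yr v) = y v := by
    have hyv : ∀ v, y v ∈ LinearMap.range j := fun v => by rw [hW]; exact ⟨v, rfl⟩
    refine ⟨(LinearEquiv.ofInjective j hj).symm.toLinearMap ∘ₗ
      (LinearMap.codRestrict (LinearMap.range j) y hyv), ?_⟩
    intro v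
    have := LinearEquiv.apply_symm_apply (LinearEquiv.ofInjective j hj)
      (LinearMap.codRestrict (LinearMap.range j) y hyv v)
    exact congrArg Subtype.val this
  have hyr : ∀ v, j (yr v) = y v := hyr0
  have hsurj : Function.Surjective yr := by
    intro w
    obtain ⟨v, hv⟩ : j w ∈ LinearMap.range y := hW ▸ ⟨w, rfl⟩
    exact ⟨v, hj (by rw [hyr, hv])⟩
  obtain ⟨σ, hσ⟩ := LinearMap.exists_rightInverse_of_surjective yr (LinearMap.range_eq_top.mpr hsurj)
  obtain ⟨pW, hpW⟩ := LinearMap.exists_leftInverse_of_injective j (LinearMap.ker_eq_bot.mpr hj)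
  have hσ' : ∀ w : W, y (σ w) = j w := fun w => by
    have := congrArg (fun f => f w) hσ
    rw [← hyr]
    exact congrArg j this
  have hpW' : ∀ w : W, pW (j w) = w := fun w => by
    have := congrArg (fun f => f w) hpW
    simpa using this
  -- extension operator
  let A : ((V ⧸ (LinearMap.range j)) →ₗ[k] (LinearMap.ker y)) →ₗ[k] Module.End k V :=
    { toFun := fun h => (LinearMap.ker y).subtype ∘ₗ h ∘ₗ (LinearMap.range j).mkQ
      map_add' := by intro a b; ext v; simp
      map_smul' := by intro a b; ext v; simp }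
  let B : Module.End k W →ₗ[k] Module.End k V :=
    { toFun := fun g => j ∘ₗ g ∘ₗ pW + σ ∘ₗ g ∘ₗ yr ∘ₗ (LinearMap.id - j ∘ₗ pW)
      map_add' := by intro a b; ext v; simp; abel
      map_smul' := by intro a b; ext v; simp }
  have hA : ∀ h v, A h v = (h ((LinearMap.range j).mkQ v) : V) := fun h v => rfl
  have hB : ∀ g v, B g v = j (g (pW v)) + σ (g (yr (v - j (pW v)))) := fun g v => rfl
  have hcomm : ∀ f : Module.End k V, (∀ v, y (f v) = f (y v)) → f ∈ comm x := by
    intro f hf
    rw [mem_comm]
    ext v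
    have := hf v
    simp only [hy, LinearMap.sub_apply, Module.algebraMap_end_apply, map_sub, map_smul] at this
    simpa using this
  let Φ : (((V ⧸ (LinearMap.range j)) →ₗ[k] (LinearMap.ker y)) × comm x') →ₗ[k] Module.End k V :=
    A.coprod (B ∘ₗ (comm x').subtype)
  have hΦ : ∀ h g v, Φ (h, g) v = A h v + B g.1 v := fun h g v => rfl
  have hΦc : ∀ p, Φ p ∈ comm x := by
    rintro ⟨h, g⟩
    refine hcomm _ ?_
    intro v
    have hg : ∀ w : W, y (j (g.1 w)) = j (g.1 (yr (j w))) := by
      intro w
      have h1 := (mem_comm.mp g.2)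
      have h2 : x' (g.1 w) = g.1 (x' w) := congrArg (fun f => f w) h1
      have h3 : x (j (g.1 w)) = j (g.1 (x' w)) := by rw [← h2, hx']
      have h4 : yr (j w) = x' w - c • w := by
        apply hj
        rw [hyr, hy, map_sub, map_smul, hx']
        simp
      rw [h4, map_sub, map_smul, hy, map_sub, map_smul]
      simp [h3]
    rw [hΦ, hΦ, map_add, hA, hA, hB, hB]
    have e1 : y (h ((LinearMap.range j).mkQ v) : V) = 0 := (h ((LinearMap.range j).mkQ v)).2
    have e2 : (LinearMap.range j).mkQ (y v) = 0 := by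
      rw [Submodule.mkQ_apply]
      exact (Submodule.Quotient.mk_eq_zero _).mpr (hyr v ▸ ⟨yr v, rfl⟩)
    have e3 : pW (y v) = yr v := by rw [← hyr, hpW']
    rw [e1, e2, e3, map_add, hg, hσ']
    simp only [map_zero, ZeroMemClass.coe_zero, zero_add, hyr, sub_self, add_zero]
    rw [← map_add, ← map_add, ← map_add]
    congr 3
    abel
  have hinj : Function.Injective Φ := by
    refine (injective_iff_map_eq_zero Φ).mpr ?_
    rintro ⟨h, g⟩ hz
    have hz' : ∀ v, A h v + B g.1 v = 0 := by
      intro v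
      rw [← hΦ, hz]
      rfl
    have hg : g.1 = 0 := by
      ext w
      have := hz' (j w)
      rw [hA, hB] at this
      have e : (LinearMap.range j).mkQ (j w) = 0 := by
        rw [Submodule.mkQ_apply]
        exact (Submodule.Quotient.mk_eq_zero _).mpr ⟨w, rfl⟩
      rw [e, hpW'] at this
      simp only [map_zero, ZeroMemClass.coe_zero, zero_add, sub_self, add_zero] at this
      exact hj (by rw [this]; simp)
    have hh : h = 0 := by
      refine LinearMap.ext fun v' => ?_
      obtain ⟨v, rfl⟩ := (LinearMap.range j).mkQ_surjective v'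
      have := hz' v
      rw [hg] at this
      rw [hA] at this
      simpa using this
    ext1
    · exact hh
    · exact Subtype.ext hg
  have hle : finrank k (((V ⧸ (LinearMap.range j)) →ₗ[k] (LinearMap.ker y)) × comm x') ≤
      finrank k (comm x) := by
    have h1 : LinearMap.range Φ ≤ comm x := by
      rintro _ ⟨p, rfl⟩
      exact hΦc p
    rw [← LinearMap.finrank_range_of_inj hinj]
    exact Submodule.finrank_mono h1
  rw [Module.finrank_prod, Module.finrank_linearMap] at hle
  have e0 : finrank k (LinearMap.range j) = finrank k W := LinearMap.finrank_range_of_inj hj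
  have e1 : finrank k (V ⧸ (LinearMap.range j)) = finrank k V - finrank k W := by
    have := Submodule.finrank_quotient_add_finrank (LinearMap.range j)
    omega
  have e2 : finrank k (LinearMap.ker y) = finrank k V - finrank k W := by
    have := LinearMap.finrank_range_add_finrank_ker y
    rw [← hW] at this
    omega
  rw [e1, e2, ← pow_two] at hle
  exact hle

theorem sq_le (l : List k) : ∀ {V : Type v} [AddCommGroup V] [Module k V] [FiniteDimensional k V]
    (x : Module.End k V), lprod x l = 0 →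
    (finrank k V) ^ 2 ≤ l.length * finrank k (comm x) := by
  induction l with
  | nil =>
    intro V _ _ _ x h
    rw [lprod_nil] at h
    have : Subsingleton V := by
      refine ⟨fun a b => ?_⟩
      have ha : (1 : Module.End k V) a = 0 := by rw [h]; rfl
      have hb : (1 : Module.End k V) b = 0 := by rw [h]; rfl
      simp at ha hb
      rw [ha, hb]
    simp [Module.finrank_zero_of_subsingleton]
  | cons c l ih =>
    intro V _ _ _ x h
    set W : Submodule k V := LinearMap.range (x - algebraMap k (Module.End k V) c) with hW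
    have hxW : ∀ w ∈ W, x w ∈ W := by
      rintro w ⟨v, rfl⟩
      refine ⟨x v, ?_⟩
      simp
    let x' : Module.End k W := x.restrict hxW
    have hx' : ∀ w : W, ((x' w : W) : V) = x w := fun w => rfl
    have hl : ∀ (l : List k) (w : W), ((lprod x' l w : W) : V) = lprod x l (w : V) := by
      intro l
      induction l with
      | nil => intro w; rfl
      | cons d l ihl =>
        intro w
        rw [lprod_cons, lprod_cons]
        simp only [Module.End.mul_apply, LinearMap.sub_apply, Module.algebraMap_end_apply,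
          Submodule.coe_sub, Submodule.coe_smul, hx', ihl]
    have hl0 : lprod x' l = 0 := by
      ext w
      rw [hl]
      obtain ⟨v, hv⟩ := w.2
      rw [← hv]
      have h1 : lprod x l * (x - algebraMap k (Module.End k V) c) = 0 := by
        rw [← (commute_lprod x c l).eq, ← lprod_cons, h]
      have h2 := congrArg (fun f => f v) h1
      simpa using h2
    have h1 := ih x' hl0
    have h2 := step x c W.subtype W.injective_subtype (by rw [Submodule.range_subtype]) x' hx'
    have h3 : finrank k W ≤ finrank k V := Submodule.finrank_le W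
    obtain ⟨b, hb⟩ := Nat.exists_eq_add_of_le h3
    rw [hb] at h2 ⊢
    rw [Nat.add_sub_cancel_left] at h2
    set m := finrank k W
    set C := finrank k (comm x')
    set D := finrank k (comm x)
    rw [List.length_cons]
    set s := l.length
    rcases Nat.eq_zero_or_pos s with hs | hs
    · rw [hs] at h1 ⊢
      have hm : m = 0 := by
        simp at h1
        exact h1
      rw [hm]
      nlinarith
    · have h4 : s * (m + b) ^ 2 ≤ s * ((s + 1) * D) := by
        have h5 : s * ((s + 1) * (b ^ 2 + C)) ≤ s * ((s + 1) * D) :=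
          Nat.mul_le_mul_left _ (Nat.mul_le_mul_left _ h2)
        refine le_trans ?_ h5
        zify at h1 ⊢
        nlinarith [sq_nonneg ((s : ℤ) * b - m)]
      exact Nat.le_of_mul_le_mul_left h4 hs

end SqLe

section Main

variable {k : Type u} [Field k] {V : Type v} [AddCommGroup V] [Module k V] [FiniteDimensional k V]
  {Q : Type*} [Group Q] [Fintype Q] (ρ : Q →* Module.End k V)

lemma inv_mul' (g : Q) : ρ g⁻¹ * ρ g = 1 := by rw [← map_mul]; simp
lemma mul_inv' (g : Q) : ρ g * ρ g⁻¹ = 1 := by rw [← map_mul]; simp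

/-- class sums -/
lemma classsum (Z : Subgroup Q) (hZ : ∀ z ∈ Z, ∃ c : k, ρ z = algebraMap k _ c)
    (hcomm : ∀ g h : Q, ∃ c : k, ρ (g * h * g⁻¹ * h⁻¹) = algebraMap k _ c)
    (hnd : ∀ g : Q, g ∉ Z → ∃ h : Q, ρ (h * g * h⁻¹ * g⁻¹) ≠ 1) (m : Q) :
    (m ∈ Z → ∑ h : Q, ρ (h * m * h⁻¹) = (Fintype.card Q : k) • ρ m) ∧
    (m ∉ Z → ∑ h : Q, ρ (h * m * h⁻¹) = 0) := by
  classical
  constructor
  · intro hm
    obtain ⟨c, hc⟩ := hZ m hm
    have : ∀ h : Q, ρ (h * m * h⁻¹) = ρ m := by
      intro h
      rw [map_mul, map_mul, hc, ← Algebra.commutes, mul_assoc, mul_inv', mul_one]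
    rw [Finset.sum_congr rfl (fun h _ => this h), Finset.sum_const, Finset.card_univ,
      ← Nat.cast_smul_eq_nsmul k]
  · intro hm
    obtain ⟨h₀, hh₀⟩ := hnd m hm
    choose χ hχ using fun h => hcomm h m
    have e1 : ∀ h : Q, ρ (h * m * h⁻¹) = χ h • ρ m := by
      intro h
      have : h * m * h⁻¹ = (h * m * h⁻¹ * m⁻¹) * m := by group
      rw [this, map_mul, hχ, Algebra.smul_def]
    have e2 : ∑ h : Q, ρ (h * m * h⁻¹) = (∑ h : Q, χ h) • ρ m := by
      rw [Finset.sum_congr rfl (fun h _ => e1 h), Finset.sum_smul]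
    set c := ∑ h : Q, χ h with hc
    have e3 : ρ h₀ * (∑ h : Q, ρ (h * m * h⁻¹)) * ρ h₀⁻¹ = ∑ h : Q, ρ (h * m * h⁻¹) := by
      rw [Finset.mul_sum, Finset.sum_mul]
      rw [← Equiv.sum_comp (Equiv.mulLeft h₀) (fun h => ρ (h * m * h⁻¹))]
      refine Finset.sum_congr rfl (fun h _ => ?_)
      rw [← map_mul, ← map_mul]
      congr 1
      simp only [Equiv.coe_mulLeft, mul_inv_rev]
      group
    rw [e2] at e3 ⊢
    rw [mul_smul_comm, smul_mul_assoc, ← map_mul, ← map_mul, e1, smul_smul] at e3
    have e4 : (c * χ h₀ - c) • ρ m = 0 := by rw [sub_smul, e3, sub_self]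
    by_contra hne
    have hc0 : c ≠ 0 := by
      intro h; apply hne; rw [h, zero_smul]
    have hm0 : ρ m ≠ 0 := by
      intro h; apply hne; rw [h, smul_zero]
    rcases smul_eq_zero.mp e4 with h | h
    · have : c * (χ h₀ - 1) = 0 := by rw [mul_sub, mul_one]; exact h
      rcases mul_eq_zero.mp this with h | h
      · exact hc0 h
      · apply hh₀
        rw [hχ, sub_eq_zero.mp h, map_one]
    · exact hm0 h

/-- the commutant of `ρ` -/
def Cc : Submodule k (Module.End k V) where
  carrier := {c | ∀ g : Q, ρ g * c = c * ρ g}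
  add_mem' := by intro a b ha hb g; rw [mul_add, add_mul, ha g, hb g]
  zero_mem' := by intro g; simp
  smul_mem' := by intro a b hb g; rw [mul_smul_comm, smul_mul_assoc, hb g]

lemma mem_Cc {c : Module.End k V} : c ∈ Cc ρ ↔ ∀ g : Q, ρ g * c = c * ρ g := Iff.rfl

/-- the averaging operators -/
noncomputable def Pr (g : Q) : Module.End k V →ₗ[k] Cc ρ :=
  LinearMap.codRestrict (Cc ρ)
    (∑ h : Q, (LinearMap.mulLeft k (ρ (h * g⁻¹))) ∘ₗ (LinearMap.mulRight k (ρ h⁻¹))) (by
      intro f g'
      simp only [LinearMap.coe_sum, Finset.sum_apply, LinearMap.coe_comp, Function.comp_apply,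
        LinearMap.mulLeft_apply, LinearMap.mulRight_apply]
      rw [Finset.mul_sum, Finset.sum_mul,
        ← Equiv.sum_comp (Equiv.mulLeft g') (fun h => ρ (h * g⁻¹) * (f * ρ h⁻¹) * ρ g')]
      refine Finset.sum_congr rfl (fun h _ => ?_)
      simp only [Equiv.coe_mulLeft, mul_inv_rev, map_mul, mul_assoc]
      rw [inv_mul', mul_one])

lemma Pr_apply (g : Q) (f : Module.End k V) :
    ((Pr ρ g f : Cc ρ) : Module.End k V) = ∑ h : Q, ρ (h * g⁻¹) * (f * ρ h⁻¹) := by
  show (∑ h : Q, (LinearMap.mulLeft k (ρ (h * g⁻¹))) ∘ₗ (LinearMap.mulRight k (ρ h⁻¹))) f = _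
  rw [LinearMap.sum_apply]
  rfl

lemma sum_Pr (Z : Subgroup Q) (hZ : ∀ z ∈ Z, ∃ c : k, ρ z = algebraMap k _ c)
    (hcomm : ∀ g h : Q, ∃ c : k, ρ (g * h * g⁻¹ * h⁻¹) = algebraMap k _ c)
    (hnd : ∀ g : Q, g ∉ Z → ∃ h : Q, ρ (h * g * h⁻¹ * g⁻¹) ≠ 1) (f : Module.End k V) :
    ∑ g : Q, ρ g * (Pr ρ g f : Cc ρ) = ((Fintype.card Q : k) * (Nat.card Z : k)) • f := by
  classical
  simp_rw [Pr_apply, Finset.mul_sum]
  rw [Finset.sum_comm]
  have e1 : ∀ h : Q, ∑ g : Q, ρ g * (ρ (h * g⁻¹) * (f * ρ h⁻¹)) =
      (∑ g : Q, ρ (g * h * g⁻¹)) * (f * ρ h⁻¹) := by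
    intro h
    rw [Finset.sum_mul]
    refine Finset.sum_congr rfl (fun g _ => ?_)
    rw [← mul_assoc, ← map_mul, mul_assoc g h]
  rw [Finset.sum_congr rfl (fun h _ => e1 h)]
  have e2 : ∀ h : Q, (∑ g : Q, ρ (g * h * g⁻¹)) * (f * ρ h⁻¹) =
      if h ∈ Z then (Fintype.card Q : k) • f else 0 := by
    intro h
    split_ifs with hh
    · rw [(classsum ρ Z hZ hcomm hnd h).1 hh]
      obtain ⟨c, hc⟩ := hZ h hh
      have e3 : ρ h * (f * ρ h⁻¹) = f := by
        rw [← mul_assoc, hc, Algebra.commutes, ← hc, mul_assoc, mul_inv', mul_one]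
      rw [smul_mul_assoc, e3]
    · rw [(classsum ρ Z hZ hcomm hnd h).2 hh, zero_mul]
  rw [Finset.sum_congr rfl (fun h _ => e2 h), ← Finset.sum_filter, Finset.sum_const,
    ← Nat.cast_smul_eq_nsmul k, smul_smul, mul_comm]
  congr 3
  rw [Nat.card_eq_fintype_card, ← Fintype.card_subtype]

theorem main [Nontrivial V] (Z : Subgroup Q) (hZ : ∀ z ∈ Z, ∃ c : k, ρ z = algebraMap k _ c)
    (hcomm : ∀ g h : Q, ∃ c : k, ρ (g * h * g⁻¹ * h⁻¹) = algebraMap k _ c)
    (hnd : ∀ g : Q, g ∉ Z → ∃ h : Q, ρ (h * g * h⁻¹ * g⁻¹) ≠ 1)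
    (hk : (Nat.card Q : k) ≠ 0) (φ : MulAut Q) (x : Module.End k V) (hx : IsUnit x)
    (hxρ : ∀ g, x * ρ g = ρ (φ g) * x) (l : List k) (hl : lprod x l = 0)
    {ι : Type*} [Finite ι] (rep : ι → Q)
    (hrep : ∀ g : Q, ∃ i, ∃ n : ℕ, ∃ z ∈ Z, g = (φ ^ n) (rep i) * z) :
    Z.index ≤ l.length * Nat.card ι := by
  classical
  letI : Fintype ι := Fintype.ofFinite ι
  have hcQ : (Fintype.card Q : k) ≠ 0 := by rwa [← Nat.card_eq_fintype_card]
  have hcZ : (Nat.card Z : k) ≠ 0 := by
    intro h
    apply hk
    obtain ⟨m, hm⟩ := Subgroup.card_subgroup_dvd_card Z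
    rw [hm, Nat.cast_mul, h, zero_mul]
  -- first inequality
  have h1 : finrank k (comm x) ≤ Nat.card ι * finrank k (Cc ρ) := by
    let Ψ : comm x →ₗ[k] (ι → Cc ρ) :=
      LinearMap.pi (fun i => (Pr ρ (rep i)) ∘ₗ (comm x).subtype)
    have hΨ : Function.Injective Ψ := by
      rw [← LinearMap.ker_eq_bot, LinearMap.ker_eq_bot']
      intro f hf
      have hfx := mem_comm.mp f.2
      have h0 : ∀ i, (Pr ρ (rep i) f.1) = 0 := fun i => congrFun hf i
      have hn : ∀ n : ℕ, ∀ g, Pr ρ g f.1 = 0 → Pr ρ ((φ ^ n) g) f.1 = 0 := by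
        intro n
        induction n with
        | zero => intro g hg; simpa using hg
        | succ n ih =>
          intro g hg
          have h2 := ih g hg
          set g' := (φ ^ n) g
          have h3 : (φ ^ (n + 1)) g = φ g' := by rw [pow_succ']; rfl
          rw [h3]
          apply Subtype.ext
          have h4 : ((Pr ρ (φ g') f.1 : Cc ρ) : Module.End k V) * x =
              x * ((Pr ρ g' f.1 : Cc ρ) : Module.End k V) := by
            rw [Pr_apply, Pr_apply, Finset.mul_sum, Finset.sum_mul,
              ← Equiv.sum_comp (φ.toEquiv) (fun h => ρ (h * (φ g')⁻¹) * (f.1 * ρ h⁻¹) * x)]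
            refine Finset.sum_congr rfl (fun h _ => ?_)
            have e1 : ρ (φ h)⁻¹ * x = x * ρ h⁻¹ := by
              rw [hxρ, map_inv φ]
            have e2 : ρ ((φ.toEquiv h) * (φ g')⁻¹) * x = x * ρ (h * g'⁻¹) := by
              rw [hxρ, map_mul φ, map_inv φ]; rfl
            calc ρ (φ.toEquiv h * (φ g')⁻¹) * (f.1 * ρ (φ.toEquiv h)⁻¹) * x
                = ρ (φ.toEquiv h * (φ g')⁻¹) * (f.1 * (ρ (φ h)⁻¹ * x)) := by
                  simp only [mul_assoc]; rfl
              _ = ρ (φ.toEquiv h * (φ g')⁻¹) * (f.1 * x * ρ h⁻¹) := by rw [e1, mul_assoc]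
              _ = ρ (φ.toEquiv h * (φ g')⁻¹) * x * (f.1 * ρ h⁻¹) := by
                  rw [← hfx]; simp only [mul_assoc]
              _ = x * (ρ (h * g'⁻¹) * (f.1 * ρ h⁻¹)) := by rw [e2]; simp only [mul_assoc]
          rw [h2] at h4
          simp only [ZeroMemClass.coe_zero, mul_zero] at h4
          exact (hx.mul_left_eq_zero).mp h4
      have hall : ∀ g : Q, Pr ρ g f.1 = 0 := by
        intro g
        obtain ⟨i, n, z, hz, rfl⟩ := hrep g
        have h2 := hn n _ (h0 i)
        set g' := (φ ^ n) (rep i)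
        obtain ⟨c, hc⟩ := hZ z⁻¹ (Z.inv_mem hz)
        apply Subtype.ext
        rw [Pr_apply]
        have h3 : ∀ h : Q, ρ (h * (g' * z)⁻¹) * (f.1 * ρ h⁻¹) = c • (ρ (h * g'⁻¹) * (f.1 * ρ h⁻¹)) := by
          intro h
          rw [mul_inv_rev, map_mul, map_mul, hc, map_mul, Algebra.smul_def, ← mul_assoc (ρ h),
            ← Algebra.commutes c (ρ h)]
          simp only [mul_assoc]
        rw [Finset.sum_congr rfl (fun h _ => h3 h), ← Finset.smul_sum, ← Pr_apply, h2]
        simp
      have h5 := sum_Pr ρ Z hZ hcomm hnd f.1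
      rw [Finset.sum_congr rfl (fun g _ => by rw [hall g, ZeroMemClass.coe_zero, mul_zero])] at h5
      rw [Finset.sum_const_zero] at h5
      apply Subtype.ext
      rcases smul_eq_zero.mp h5.symm with h | h
      · exact absurd h (mul_ne_zero hcQ hcZ)
      · exact h
    have := LinearMap.finrank_le_finrank_of_injective hΨ
    rwa [Module.finrank_pi_fintype, Finset.sum_const, Finset.card_univ, smul_eq_mul,
      ← Nat.card_eq_fintype_card] at this
  -- second inequality
  have h2 : Z.index * finrank k (Cc ρ) ≤ (finrank k V) ^ 2 := by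
    letI : Fintype (Q ⧸ Z) := Fintype.ofFinite _
    obtain ⟨out, hout⟩ : ∃ out : (Q ⧸ Z) → Q, ∀ i, (out i : Q ⧸ Z) = i :=
      ⟨fun i => Quotient.out i, fun i => QuotientGroup.out_eq' i⟩
    let Θ : ((Q ⧸ Z) → Cc ρ) →ₗ[k] Module.End k V :=
      { toFun := fun c => ∑ i, ρ (out i) * (c i : Module.End k V)
        map_add' := by
          intro a b
          rw [← Finset.sum_add_distrib]
          exact Finset.sum_congr rfl (fun i _ => by simp [mul_add])
        map_smul' := by
          intro a b
          rw [Finset.smul_sum]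
          exact Finset.sum_congr rfl (fun i _ => by simp) }
    have hΘ : Function.Injective Θ := by
      rw [← LinearMap.ker_eq_bot, LinearMap.ker_eq_bot']
      intro c hc
      funext j
      apply Subtype.ext
      have h3 : ((Pr ρ (out j) (Θ c) : Cc ρ) : Module.End k V) = (Fintype.card Q : k) • (c j : Module.End k V) := by
        rw [Pr_apply]
        have e0 : ∀ h : Q, ρ (h * (out j)⁻¹) * (Θ c * ρ h⁻¹) =
            ∑ i, ρ (h * ((out j)⁻¹ * out i) * h⁻¹) * (c i : Module.End k V) := by
          intro h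
          show ρ (h * (out j)⁻¹) * ((∑ i, ρ (out i) * (c i : Module.End k V)) * ρ h⁻¹) = _
          rw [Finset.sum_mul, Finset.mul_sum]
          refine Finset.sum_congr rfl (fun i _ => ?_)
          have hci := mem_Cc ρ |>.mp (c i).2 h⁻¹
          rw [mul_assoc, ← hci, ← mul_assoc, ← mul_assoc, ← map_mul, ← map_mul]
          congr 2
          group
        rw [Finset.sum_congr rfl (fun h _ => e0 h), Finset.sum_comm]
        have e1 : ∀ i, ∑ h : Q, ρ (h * ((out j)⁻¹ * out i) * h⁻¹) * (c i : Module.End k V)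
            = if i = j then (Fintype.card Q : k) • (c i : Module.End k V) else 0 := by
          intro i
          rw [← Finset.sum_mul]
          split_ifs with hij
          · rw [hij, inv_mul_cancel, (classsum ρ Z hZ hcomm hnd 1).1 Z.one_mem, map_one,
              smul_mul_assoc, one_mul]
          · rw [(classsum ρ Z hZ hcomm hnd _).2 ?_, zero_mul]
            intro hmem
            apply hij
            have := QuotientGroup.eq.mpr hmem
            rw [hout, hout] at this
            exact this.symm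
        rw [Finset.sum_congr rfl (fun i _ => e1 i), Finset.sum_ite_eq' Finset.univ j]
        simp
      rw [hc, map_zero, ZeroMemClass.coe_zero] at h3
      rcases smul_eq_zero.mp h3.symm with h | h
      · exact absurd h hcQ
      · exact h
    have := LinearMap.finrank_le_finrank_of_injective hΘ
    rw [Module.finrank_pi_fintype, Finset.sum_const, Finset.card_univ, smul_eq_mul,
      ← Nat.card_eq_fintype_card, Module.finrank_linearMap, ← pow_two] at this
    exact this
  have h3 : 0 < finrank k (Cc ρ) := by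
    rw [Module.finrank_pos_iff]
    refine ⟨0, ⟨1, by intro g; simp⟩, ?_⟩
    intro h
    have := congrArg Subtype.val h
    exact zero_ne_one this
  have h4 := sq_le l x hl
  have h5 : Z.index * finrank k (Cc ρ) ≤ (l.length * Nat.card ι) * finrank k (Cc ρ) := by
    calc Z.index * finrank k (Cc ρ) ≤ (finrank k V) ^ 2 := h2
      _ ≤ l.length * finrank k (comm x) := h4
      _ ≤ l.length * (Nat.card ι * finrank k (Cc ρ)) := Nat.mul_le_mul_left _ h1
      _ = _ := by ring
  exact Nat.le_of_mul_le_mul_right h5 h3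

theorem semireg [Nontrivial V] (Z : Subgroup Q) (hZ : ∀ z ∈ Z, ∃ c : k, ρ z = algebraMap k _ c)
    (hcomm : ∀ g h : Q, ∃ c : k, ρ (g * h * g⁻¹ * h⁻¹) = algebraMap k _ c)
    (hnd : ∀ g : Q, g ∉ Z → ∃ h : Q, ρ (h * g * h⁻¹ * g⁻¹) ≠ 1)
    (hk : (Nat.card Q : k) ≠ 0) (φ : MulAut Q) (x : Module.End k V) (hx : IsUnit x)
    (hxρ : ∀ g, x * ρ g = ρ (φ g) * x) (l : List k) (hl : lprod x l = 0)
    (h : ℕ) (hpos : 0 < h) (hφZ : ∀ z ∈ Z, φ z ∈ Z)
    (h1 : ∀ g, g⁻¹ * (φ ^ h) g ∈ Z)
    (h2 : ∀ i, 0 < i → i < h → ∀ g, g⁻¹ * (φ ^ i) g ∈ Z → g ∈ Z) :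
    h * Z.index ≤ l.length * (h + Z.index - 1) := by
  classical
  have hs : 1 ≤ l.length := by
    by_contra hcon
    have h3 : l = [] := by
      rw [← List.length_eq_zero_iff]; omega
    rw [h3, lprod_nil] at hl
    exact one_ne_zero hl
  have hZn : Z.Normal := by
    constructor
    intro z hz g
    by_contra hcon
    obtain ⟨t, ht⟩ := hnd _ hcon
    apply ht
    obtain ⟨c, hc⟩ := hZ z hz
    have e1 : ρ (g * z * g⁻¹) = algebraMap k _ c := by
      rw [map_mul, map_mul, hc, ← Algebra.commutes, mul_assoc, mul_inv', mul_one]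
    rw [map_mul, map_mul, map_mul, e1, ← Algebra.commutes, mul_assoc (algebraMap k _ c), mul_inv',
      mul_one, ← e1, mul_inv']
  have hmap : Z.map (φ : Q ≃* Q).toMonoidHom = Z := by
    apply Subgroup.eq_of_le_of_card_ge
    · rintro _ ⟨z, hz, rfl⟩
      exact hφZ z hz
    · rw [Subgroup.card_map_of_injective (φ : Q ≃* Q).injective]
  let σ : MulAut (Q ⧸ Z) := QuotientGroup.congr Z Z φ hmap
  have hσ : ∀ (i : ℕ) (g : Q), (σ ^ i) (g : Q ⧸ Z) = (((φ ^ i) g : Q) : Q ⧸ Z) := by
    intro i
    induction i with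
    | zero => intro g; rfl
    | succ i ih =>
      intro g
      rw [pow_succ', pow_succ', MulAut.mul_apply, ih, MulAut.mul_apply]
      rfl
  by_cases htop : Z = ⊤
  · rw [htop, Subgroup.index_top, mul_one]
    have : h + 1 - 1 = h := by omega
    rw [this]
    exact Nat.le_mul_of_pos_left h hs
  obtain ⟨g₀, hg₀⟩ : ∃ g₀, g₀ ∉ Z := by
    by_contra hcon
    push Not at hcon
    exact htop (eq_top_iff.mpr fun g _ => hcon g)
  have hord : orderOf σ = h := by
    rw [orderOf_eq_iff hpos]
    constructor
    · ext q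
      obtain ⟨g, rfl⟩ := QuotientGroup.mk_surjective q
      rw [hσ]
      exact (QuotientGroup.eq.mpr (h1 g)).symm
    · intro m hm hm0 hcon
      apply hg₀
      refine h2 m hm0 hm g₀ ?_
      rw [← QuotientGroup.eq, ← hσ, hcon]
      rfl
  letI : Fintype (Q ⧸ Z) := Fintype.ofFinite _
  letI : Fintype (Subgroup.zpowers σ) := Fintype.ofFinite _
  letI : ∀ a : Subgroup.zpowers σ, Fintype (MulAction.fixedBy (Q ⧸ Z) a) := fun a => Fintype.ofFinite _
  letI : Fintype (Quotient (MulAction.orbitRel (Subgroup.zpowers σ) (Q ⧸ Z))) := Fintype.ofFinite _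
  have hburn := MulAction.sum_card_fixedBy_eq_card_orbits_mul_card_group (Subgroup.zpowers σ) (Q ⧸ Z)
  have hfix : ∀ a : Subgroup.zpowers σ, Fintype.card (MulAction.fixedBy (Q ⧸ Z) a) =
      1 + if a = 1 then (Z.index - 1) else 0 := by
    intro a
    split_ifs with ha
    · have e1 : MulAction.fixedBy (Q ⧸ Z) a = Set.univ := by
        rw [ha]; ext q; simp
      rw [← Nat.card_eq_fintype_card, e1, Nat.card_univ]
      have : 0 < Z.index := Nat.pos_of_ne_zero Z.index_ne_zero_of_finite
      change Z.index = _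
      omega
    · rw [add_zero]
      have e1 : MulAction.fixedBy (Q ⧸ Z) a = {1} := by
        ext q
        constructor
        · intro hq
          obtain ⟨g, rfl⟩ := QuotientGroup.mk_surjective q
          obtain ⟨n, hn⟩ := (mem_powers_iff_mem_zpowers (x := σ)).mpr a.2
          have hn' : σ ^ (n % h) = a.1 := by
            rw [← hord, pow_mod_orderOf]; exact hn
          have hpos' : 0 < n % h := by
            rcases Nat.eq_zero_or_pos (n % h) with h0 | h0
            · exfalso
              apply ha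
              apply Subtype.ext
              rw [← hn', h0]; rfl
            · exact h0
          have hlt : n % h < h := Nat.mod_lt _ hpos
          have hq' : a.1 (g : Q ⧸ Z) = (g : Q ⧸ Z) := hq
          rw [← hn', hσ] at hq'
          have := h2 _ hpos' hlt g (QuotientGroup.eq.mp hq'.symm)
          rw [Set.mem_singleton_iff]
          exact (QuotientGroup.eq_one_iff g).mpr this
        · rintro rfl
          show a.1 1 = 1
          exact map_one _
      rw [← Nat.card_eq_fintype_card, e1]
      simp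
  rw [Finset.sum_congr rfl (fun a _ => hfix a), Finset.sum_add_distrib, Finset.sum_const,
    Finset.sum_ite_eq' Finset.univ (1 : Subgroup.zpowers σ), Finset.card_univ, smul_eq_mul,
    mul_one, ← Nat.card_eq_fintype_card, ← Nat.card_eq_fintype_card, Nat.card_zpowers, hord] at hburn
  simp only [Finset.mem_univ, if_true] at hburn
  let rep : (Quotient (MulAction.orbitRel (Subgroup.zpowers σ) (Q ⧸ Z))) → Q := fun i =>
    (QuotientGroup.mk_surjective (Quotient.out i)).choose
  have hrep0 : ∀ i, ((rep i : Q) : Q ⧸ Z) = Quotient.out i := fun i =>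
    (QuotientGroup.mk_surjective (Quotient.out i)).choose_spec
  have hmain := main ρ Z hZ hcomm hnd hk φ x hx hxρ l hl rep (by
    intro g
    let i : Quotient (MulAction.orbitRel (Subgroup.zpowers σ) (Q ⧸ Z)) := Quotient.mk'' (g : Q ⧸ Z)
    have h3 : (MulAction.orbitRel (Subgroup.zpowers σ) (Q ⧸ Z)) (Quotient.out i) (g : Q ⧸ Z) := by
      have : Quotient.mk'' (Quotient.out i) = i := Quotient.out_eq' i
      exact Quotient.exact' this
    have h4 : (MulAction.orbitRel (Subgroup.zpowers σ) (Q ⧸ Z)) (g : Q ⧸ Z) (Quotient.out i) :=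
      Setoid.symm' _ h3
    rw [MulAction.orbitRel_apply] at h4
    obtain ⟨a, ha⟩ := h4
    obtain ⟨n, hn⟩ := (mem_powers_iff_mem_zpowers (x := σ)).mpr a.2
    refine ⟨i, n, ((φ ^ n) (rep i))⁻¹ * g, ?_, by group⟩
    rw [← QuotientGroup.eq, ← hσ, hrep0]
    have ha' : a.1 (Quotient.out i) = (g : Q ⧸ Z) := ha
    rw [← ha', ← hn])
  have h5 : 1 ≤ Z.index := Nat.pos_of_ne_zero Z.index_ne_zero_of_finite
  set N := Nat.card (Quotient (MulAction.orbitRel (Subgroup.zpowers σ) (Q ⧸ Z)))
  calc h * Z.index ≤ h * (l.length * N) := Nat.mul_le_mul_left _ hmain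
    _ = l.length * (N * h) := by ring
    _ = l.length * (h + Z.index - 1) := by
        rw [← hburn]
        congr 1
        omega

end Main

end Cfsg.Agent.H22.HH1
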