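import Cfsg.Agent.H22_HH1

/-!
# Irreducible representations of groups of class two, twisted by an automorphism
-/

set_option autoImplicit false
set_option linter.unusedSectionVars false

namespace Cfsg.Agent.H22.HH2

open Module HH1

universe u v w

variable {k : Type u} [Field k]

section Irr

variable {W : Type v} [AddCommGroup W] [Module k W] {Q : Type w} [Group Q]

/-- irreducible -/
def SIrr (σ : Q →* Module.End k W) : Prop :=
  Nontrivial W ∧ ∀ U : Submodule k W, (∀ g, ∀ u ∈ U, σ g u ∈ U) → U = ⊥ ∨ U = ⊤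

theorem schur [FiniteDimensional k W] [IsAlgClosed k] {σ : Q →* Module.End k W} (h : SIrr σ)
    (f : Module.End k W)
    (hf : ∀ g, σ g * f = f * σ g) : ∃ c : k, f = algebraMap k _ c := by
  haveI := h.1
  obtain ⟨c, hc⟩ := Module.End.exists_eigenvalue f
  refine ⟨c, ?_⟩
  obtain ⟨v, hv⟩ := hc.exists_hasEigenvector
  have h1 := h.2 (LinearMap.ker (f - algebraMap k _ c)) (by
    intro g u hu
    rw [LinearMap.mem_ker] at hu ⊢
    have h2 : (f - algebraMap k _ c) * σ g = σ g * (f - algebraMap k _ c) := by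
      rw [sub_mul, mul_sub, hf, Algebra.commutes]
    have h3 := congrArg (fun F => F u) h2
    simp only [Module.End.mul_apply] at h3
    rw [h3, hu, map_zero])
  have hv0 : v ∈ LinearMap.ker (f - algebraMap k (Module.End k W) c) := by
    rw [LinearMap.mem_ker, LinearMap.sub_apply, hv.apply_eq_smul]
    simp
  rcases h1 with h1 | h1
  · rw [h1] at hv0
    exact absurd ((Submodule.mem_bot k).mp hv0) hv.2
  · exact sub_eq_zero.mp (LinearMap.ker_eq_top.mp h1)

theorem inj_of_ne {σ : Q →* Module.End k W} (h : SIrr σ) {V : Type*} [AddCommGroup V] [Module k V]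
    (f : W →ₗ[k] V) (hinv : ∀ g w, f w = 0 → f (σ g w) = 0) (hne : f ≠ 0) :
    Function.Injective f := by
  rcases h.2 (LinearMap.ker f) (fun g u hu => by
    rw [LinearMap.mem_ker] at hu ⊢
    exact hinv g u hu) with h1 | h1
  · exact LinearMap.ker_eq_bot.mp h1
  · exact absurd (LinearMap.ker_eq_top.mp h1) hne

/-- the elements acting as scalars -/
def scal (σ : Q →* Module.End k W) : Subgroup Q where
  carrier := {g | ∃ c : k, σ g = algebraMap k _ c}
  one_mem' := ⟨1, by simp⟩
  mul_mem' := by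
    rintro a b ⟨c, hc⟩ ⟨d, hd⟩
    exact ⟨c * d, by rw [map_mul, hc, hd, map_mul]⟩
  inv_mem' := by
    rintro a ⟨c, hc⟩
    by_cases hs : Subsingleton W
    · exact ⟨0, by ext w; exact Subsingleton.elim _ _⟩
    rw [not_subsingleton_iff_nontrivial] at hs
    have hc0 : c ≠ 0 := by
      rintro rfl
      have h1 : σ a * σ a⁻¹ = 1 := by rw [← map_mul]; simp
      rw [hc, map_zero, zero_mul] at h1
      exact zero_ne_one h1
    refine ⟨c⁻¹, ?_⟩
    have h1 : σ a * σ a⁻¹ = 1 := by rw [← map_mul]; simp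
    calc σ a⁻¹ = (algebraMap k _ c⁻¹ * algebraMap k _ c) * σ a⁻¹ := by
          rw [← map_mul, inv_mul_cancel₀ hc0, map_one, one_mul]
      _ = algebraMap k _ c⁻¹ * (σ a * σ a⁻¹) := by rw [hc, mul_assoc]
      _ = algebraMap k _ c⁻¹ := by rw [h1, mul_one]

lemma mem_scal {σ : Q →* Module.End k W} {g : Q} : g ∈ scal σ ↔ ∃ c : k, σ g = algebraMap k _ c :=
  Iff.rfl

theorem center_le_scal [FiniteDimensional k W] [IsAlgClosed k] {σ : Q →* Module.End k W}
    (h : SIrr σ) : Subgroup.center Q ≤ scal σ := by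
  intro z hz
  exact schur h (σ z) (fun g => by rw [← map_mul, ← map_mul, Subgroup.mem_center_iff.mp hz g])

theorem scal_normal (σ : Q →* Module.End k W) : (scal σ).Normal := by
  constructor
  rintro z ⟨c, hc⟩ g
  have h1 : σ g * σ g⁻¹ = 1 := by rw [← map_mul]; simp
  exact ⟨c, by rw [map_mul, map_mul, hc, ← Algebra.commutes, mul_assoc, h1, mul_one]⟩

theorem nondeg [FiniteDimensional k W] [IsAlgClosed k] {σ : Q →* Module.End k W} (h : SIrr σ)
    (g : Q) (hg : g ∉ scal σ) : ∃ t : Q, σ (t * g * t⁻¹ * g⁻¹) ≠ 1 := by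
  by_contra hcon
  push Not at hcon
  apply hg
  refine schur h (σ g) (fun t => ?_)
  have h1 := hcon t
  rw [← map_mul, ← map_mul]
  have : t * g = (t * g * t⁻¹ * g⁻¹) * (g * t) := by group
  rw [this, map_mul, h1, one_mul]

end Irr

section Index

variable {W : Type v} [AddCommGroup W] [Module k W] [FiniteDimensional k W]
  {Q : Type w} [Group Q] [Fintype Q]

theorem index_mul (ρ : Q →* Module.End k W) (Z : Subgroup Q)
    (hZ : ∀ z ∈ Z, ∃ c : k, ρ z = algebraMap k _ c)
    (hcomm : ∀ g h : Q, ∃ c : k, ρ (g * h * g⁻¹ * h⁻¹) = algebraMap k _ c)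
    (hnd : ∀ g : Q, g ∉ Z → ∃ h : Q, ρ (h * g * h⁻¹ * g⁻¹) ≠ 1)
    (hk : (Nat.card Q : k) ≠ 0) :
    Z.index * finrank k (Cc ρ) = (finrank k W) ^ 2 := by
  classical
  have hcQ : (Fintype.card Q : k) ≠ 0 := by rwa [← Nat.card_eq_fintype_card]
  have hcZ : (Nat.card Z : k) ≠ 0 := by
    intro h
    apply hk
    obtain ⟨m, hm⟩ := Subgroup.card_subgroup_dvd_card Z
    rw [hm, Nat.cast_mul, h, zero_mul]
  letI : Fintype (Q ⧸ Z) := Fintype.ofFinite _
  obtain ⟨out, hout⟩ : ∃ out : (Q ⧸ Z) → Q, ∀ i, (out i : Q ⧸ Z) = i :=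
    ⟨fun i => Quotient.out i, fun i => QuotientGroup.out_eq' i⟩
  let Θ : ((Q ⧸ Z) → Cc ρ) →ₗ[k] Module.End k W :=
    { toFun := fun c => ∑ i, ρ (out i) * (c i : Module.End k W)
      map_add' := by
        intro a b
        rw [← Finset.sum_add_distrib]
        exact Finset.sum_congr rfl (fun i _ => by simp [mul_add])
      map_smul' := by
        intro a b
        rw [Finset.smul_sum]
        exact Finset.sum_congr rfl (fun i _ => by simp) }
  have hΘ : Function.Injective Θ := by
    rw [← LinearMap.ker_eq_bot, LinearMap.ker_eq_bot']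
    intro c hc
    funext j
    apply Subtype.ext
    have h3 : ((Pr ρ (out j) (Θ c) : Cc ρ) : Module.End k W) = (Fintype.card Q : k) • (c j : Module.End k W) := by
      rw [Pr_apply]
      have e0 : ∀ h : Q, ρ (h * (out j)⁻¹) * (Θ c * ρ h⁻¹) =
          ∑ i, ρ (h * ((out j)⁻¹ * out i) * h⁻¹) * (c i : Module.End k W) := by
        intro h
        show ρ (h * (out j)⁻¹) * ((∑ i, ρ (out i) * (c i : Module.End k W)) * ρ h⁻¹) = _
        rw [Finset.sum_mul, Finset.mul_sum]
        refine Finset.sum_congr rfl (fun i _ => ?_)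
        have hci := mem_Cc ρ |>.mp (c i).2 h⁻¹
        rw [mul_assoc, ← hci, ← mul_assoc, ← mul_assoc, ← map_mul, ← map_mul]
        congr 2
        group
      rw [Finset.sum_congr rfl (fun h _ => e0 h), Finset.sum_comm]
      have e1 : ∀ i, ∑ h : Q, ρ (h * ((out j)⁻¹ * out i) * h⁻¹) * (c i : Module.End k W)
          = if i = j then (Fintype.card Q : k) • (c i : Module.End k W) else 0 := by
        intro i
        rw [← Finset.sum_mul]
        split_ifs with hij
        · rw [hij, inv_mul_cancel, (classsum ρ Z hZ hcomm hnd 1).1 Z.one_mem, map_one,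
            smul_mul_assoc, one_mul]
        · rw [(classsum ρ Z hZ hcomm hnd _).2 ?_, zero_mul]
          intro hmem
          apply hij
          have := QuotientGroup.eq.mpr hmem
          rw [hout, hout] at this
          exact this.symm
      rw [Finset.sum_congr rfl (fun i _ => e1 i), Finset.sum_ite_eq' Finset.univ j]
      simp
    rw [hc, map_zero, ZeroMemClass.coe_zero] at h3
    rcases smul_eq_zero.mp h3.symm with h | h
    · exact absurd h hcQ
    · exact h
  have hsurj : Function.Surjective Θ := by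
    rw [← LinearMap.range_eq_top, eq_top_iff]
    intro f _
    have h1 : ∀ g : Q, ∀ c : Cc ρ, ρ g * (c : Module.End k W) ∈ LinearMap.range Θ := by
      intro g c
      set i : Q ⧸ Z := (g : Q ⧸ Z) with hi
      have h2 : (out i)⁻¹ * g ∈ Z := by
        rw [← QuotientGroup.eq, hout]
      obtain ⟨d, hd⟩ := hZ _ h2
      refine ⟨Pi.single i (d • c), ?_⟩
      show ∑ j, ρ (out j) * ((Pi.single i (d • c) : (Q ⧸ Z) → Cc ρ) j : Module.End k W) = _
      rw [Finset.sum_eq_single i]
      · rw [Pi.single_eq_same, Submodule.coe_smul]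
        have h3 : g = out i * ((out i)⁻¹ * g) := by group
        conv_rhs => rw [h3, map_mul, hd]
        rw [mul_assoc, ← Algebra.smul_def]
      · intro j _ hj
        rw [Pi.single_eq_of_ne hj, ZeroMemClass.coe_zero, mul_zero]
      · intro h
        exact absurd (Finset.mem_univ i) h
    have h2 := sum_Pr ρ Z hZ hcomm hnd f
    have h3 : ((Fintype.card Q : k) * (Nat.card Z : k)) • f ∈ LinearMap.range Θ := by
      rw [← h2]
      exact Submodule.sum_mem _ (fun g _ => h1 g _)
    have h4 := (LinearMap.range Θ).smul_mem (((Fintype.card Q : k) * (Nat.card Z : k))⁻¹) h3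
    rwa [smul_smul, inv_mul_cancel₀ (mul_ne_zero hcQ hcZ), one_smul] at h4
  have h1 := (LinearEquiv.ofBijective Θ ⟨hΘ, hsurj⟩).finrank_eq
  rw [Module.finrank_pi_fintype, Finset.sum_const, Finset.card_univ, smul_eq_mul,
    ← Nat.card_eq_fintype_card, Module.finrank_linearMap, ← pow_two] at h1
  exact h1

theorem finrank_Cc [IsAlgClosed k] {σ : Q →* Module.End k W} (h : SIrr σ) : finrank k (Cc σ) = 1 := by
  haveI := h.1
  rw [finrank_eq_one_iff']
  refine ⟨⟨1, fun g => by simp⟩, ?_, ?_⟩
  · intro h0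
    exact one_ne_zero (congrArg Subtype.val h0)
  · intro c
    obtain ⟨d, hd⟩ := schur h c.1 (fun g => c.2 g)
    refine ⟨d, Subtype.ext ?_⟩
    rw [hd, Submodule.coe_smul, Algebra.smul_def, mul_one]

/-- class two -/
def Cl2 (Q : Type*) [Group Q] : Prop := ∀ g h : Q, g * h * g⁻¹ * h⁻¹ ∈ Subgroup.center Q

theorem index_scal [IsAlgClosed k] {σ : Q →* Module.End k W} (h : SIrr σ) (hcl : Cl2 Q)
    (hk : (Nat.card Q : k) ≠ 0) : (scal σ).index = (finrank k W) ^ 2 := by
  have := index_mul σ (scal σ) (fun z hz => hz) (fun g t => center_le_scal h (hcl g t))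
    (fun g hg => nondeg h g hg) hk
  rwa [finrank_Cc h, mul_one] at this

/-- the basic inequality -/
theorem basic [IsAlgClosed k] {σ : Q →* Module.End k W} (h : SIrr σ) (hcl : Cl2 Q)
    (hk : (Nat.card Q : k) ≠ 0) (ψ : MulAut Q) (T : Module.End k W) (hT : IsUnit T)
    (hTσ : ∀ g, T * σ g = σ (ψ g) * T) (l : List k) (hl : lprod T l = 0)
    (m : ℕ) (hpos : 0 < m) (hψ : ψ ^ m = 1)
    (h2 : ∀ i, 0 < i → i < m → ∀ g, g⁻¹ * (ψ ^ i) g ∈ scal σ → g ∈ scal σ) :
    m * (finrank k W) ^ 2 ≤ l.length * (m + (finrank k W) ^ 2 - 1) := by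
  haveI := h.1
  have := semireg σ (scal σ) (fun z hz => hz) (fun g t => center_le_scal h (hcl g t))
    (fun g hg => nondeg h g hg) hk ψ T hT hTσ l hl m hpos (by
      rintro z ⟨c, hc⟩
      refine ⟨c, ?_⟩
      have h3 := hTσ z
      rw [hc, ← Algebra.commutes] at h3
      exact (hT.mul_left_inj.mp h3).symm) (by
      intro g
      rw [hψ]
      simp only [MulAut.one_apply, inv_mul_cancel]
      exact one_mem _) h2
  rwa [index_scal h hcl hk] at this

end Index

section Clifford

variable {V : Type v} [AddCommGroup V] [Module k V] [FiniteDimensional k V]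
  {W : Type v} [AddCommGroup W] [Module k W] [FiniteDimensional k W]
  {Q : Type w} [Group Q]

/-- From an invariant irreducible constituent one gets a submodule invariant under `X`. -/
theorem extend [IsAlgClosed k] {σ : Q →* Module.End k W} (h : SIrr σ) (ρ : Q →* Module.End k V)
    (j : W →ₗ[k] V) (hj0 : j ≠ 0) (hj : ∀ g w, j (σ g w) = ρ g (j w)) (φ : MulAut Q)
    (X : Module.End k V) (hX : IsUnit X) (hXρ : ∀ g, X * ρ g = ρ (φ g) * X)
    (T : Module.End k W) (hT0 : T ≠ 0) (hTσ : ∀ g, T * σ g = σ (φ g) * T) :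
    ∃ (T' : Module.End k W) (m : W →ₗ[k] V), IsUnit T' ∧ (∀ g, T' * σ g = σ (φ g) * T') ∧
      Function.Injective m ∧ (∀ g w, m (σ g w) = ρ g (m w)) ∧ (∀ w, X (m w) = m (T' w)) := by
  have hTi : Function.Injective T := inj_of_ne h T (fun g w hw => by
    have := congrArg (fun F => F w) (hTσ g)
    simp only [Module.End.mul_apply] at this
    rw [this, hw, map_zero]) hT0
  have hTu : IsUnit T := by
    rw [Module.End.isUnit_iff]
    exact ⟨hTi, LinearMap.injective_iff_surjective.mp hTi⟩
  obtain ⟨Ti, hTi1, hTi2⟩ : ∃ Ti : Module.End k W, T * Ti = 1 ∧ Ti * T = 1 := by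
    obtain ⟨Tu, rfl⟩ := hTu
    exact ⟨_, Tu.mul_inv, Tu.inv_mul⟩
  have hT1 : ∀ w, T (Ti w) = w := fun w => congrArg (fun F => F w) hTi1
  have hT2 : ∀ w, Ti (T w) = w := fun w => congrArg (fun F => F w) hTi2
  have hTσ' : ∀ g w, T (σ g w) = σ (φ g) (T w) := fun g w => by
    have := congrArg (fun F => F w) (hTσ g)
    simpa using this
  have hXρ' : ∀ g v, X (ρ g v) = ρ (φ g) (X v) := fun g v => by
    have := congrArg (fun F => F v) (hXρ g)
    simpa using this
  let M : Submodule k (W →ₗ[k] V) :=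
    { carrier := {m | ∀ g w, m (σ g w) = ρ g (m w)}
      add_mem' := by
        intro a b ha hb g w
        rw [LinearMap.add_apply, LinearMap.add_apply, ha, hb, map_add]
      zero_mem' := by intro g w; simp
      smul_mem' := by
        intro c a ha g w
        rw [LinearMap.smul_apply, LinearMap.smul_apply, ha, map_smul] }
  let τ : Module.End k M :=
    { toFun := fun m => ⟨X ∘ₗ m.1 ∘ₗ Ti, by
        intro g w
        simp only [LinearMap.coe_comp, Function.comp_apply]
        have e1 : Ti (σ g w) =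
            σ (φ⁻¹ g) (Ti w) := by
          apply hTi
          rw [hT1, hTσ', hT1]
          congr 2
          show g = φ (φ⁻¹ g)
          rw [MulAut.apply_inv_self]
        rw [e1, m.2, hXρ']
        congr 2
        show φ (φ⁻¹ g) = g
        rw [MulAut.apply_inv_self]⟩
      map_add' := by intro a b; ext w; simp
      map_smul' := by intro a b; ext w; simp }
  haveI : Nontrivial M := ⟨⟨⟨j, hj⟩, 0, fun h0 => hj0 (congrArg Subtype.val h0)⟩⟩
  obtain ⟨c, hc⟩ := Module.End.exists_eigenvalue τ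
  obtain ⟨m, hm⟩ := hc.exists_hasEigenvector
  have hm1 : ∀ w, X (m.1 (Ti w)) = c • m.1 w := by
    intro w
    have := congrArg (fun F : M => F.1 w) hm.apply_eq_smul
    exact this
  have hm0 : m.1 ≠ 0 := fun h0 => hm.2 (Subtype.ext h0)
  have hmi : Function.Injective m.1 := inj_of_ne h m.1 (fun g w hw => by rw [m.2, hw, map_zero]) hm0
  have hc0 : c ≠ 0 := by
    rintro rfl
    apply hm0
    ext w
    have := hm1 (T w)
    rw [hT2, zero_smul] at this
    obtain ⟨Xu, rfl⟩ := hX
    have h3 := congrArg (fun v => ((Xu⁻¹ : (Module.End k V)ˣ) : Module.End k V) v) this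
    simp only [map_zero] at h3
    have h4 := congrArg (fun F => F (m.1 w)) (Xu.inv_mul)
    simp only [Module.End.mul_apply, Module.End.one_apply] at h4
    rw [h4] at h3
    simpa using h3
  refine ⟨c • T, m.1, ?_, ?_, hmi, m.2, ?_⟩
  · rw [Algebra.smul_def]
    exact ((isUnit_iff_ne_zero.mpr hc0).map (algebraMap k (Module.End k W))).mul hTu
  · intro g
    rw [smul_mul_assoc, mul_smul_comm, hTσ]
  · intro w
    have := hm1 (T w)
    rw [hT2] at this
    rw [this, LinearMap.smul_apply, map_smul]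

/-- equivariant projection -/
theorem exists_proj [Fintype Q] (hk : (Nat.card Q : k) ≠ 0) {σ : Q →* Module.End k W}
    (ρ : Q →* Module.End k V)
    (m : W →ₗ[k] V) (hmi : Function.Injective m) (hm : ∀ g w, m (σ g w) = ρ g (m w)) :
    ∃ P : V →ₗ[k] W, (∀ w, P (m w) = w) ∧ ∀ g v, P (ρ g v) = σ g (P v) := by
  classical
  obtain ⟨P₀, hP₀⟩ := LinearMap.exists_leftInverse_of_injective m (LinearMap.ker_eq_bot.mpr hmi)
  have hP₀' : ∀ w, P₀ (m w) = w := fun w => by
    have := congrArg (fun F => F w) hP₀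
    simpa using this
  have hcQ : (Fintype.card Q : k) ≠ 0 := by rwa [← Nat.card_eq_fintype_card]
  have key : ∀ v, (∑ g : Q, (σ g) ∘ₗ P₀ ∘ₗ (ρ g⁻¹)) v = ∑ g : Q, σ g (P₀ (ρ g⁻¹ v)) := by
    intro v
    rw [LinearMap.sum_apply]
    rfl
  refine ⟨(Fintype.card Q : k)⁻¹ • ∑ g : Q, (σ g) ∘ₗ P₀ ∘ₗ (ρ g⁻¹), ?_, ?_⟩
  · intro w
    rw [LinearMap.smul_apply, key]
    have : ∀ g : Q, σ g (P₀ (ρ g⁻¹ (m w))) = w := by
      intro g
      rw [← hm, hP₀', ← Module.End.mul_apply, HH1.mul_inv', Module.End.one_apply]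
    rw [Finset.sum_congr rfl (fun g _ => this g), Finset.sum_const, Finset.card_univ,
      ← Nat.cast_smul_eq_nsmul k, smul_smul, inv_mul_cancel₀ hcQ, one_smul]
  · intro g v
    rw [LinearMap.smul_apply, LinearMap.smul_apply, key, key, map_smul]
    congr 1
    rw [map_sum, ← Equiv.sum_comp (Equiv.mulLeft g) (fun t => σ t (P₀ (ρ t⁻¹ (ρ g v))))]
    refine Finset.sum_congr rfl (fun t _ => ?_)
    simp only [Equiv.coe_mulLeft, map_mul, Module.End.mul_apply, mul_inv_rev]
    congr 3
    rw [← Module.End.mul_apply, ← Module.End.mul_apply, mul_assoc, HH1.inv_mul', mul_one]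

/-- the constituents moved by `X ^ i` are killed by the projection -/
theorem proj_zero {σ : Q →* Module.End k W} (ρ : Q →* Module.End k V)
    (m : W →ₗ[k] V) (hm : ∀ g w, m (σ g w) = ρ g (m w)) (P : V →ₗ[k] W)
    (hP : ∀ g v, P (ρ g v) = σ g (P v)) (φ : MulAut Q) (X : Module.End k V)
    (hXρ : ∀ g, X * ρ g = ρ (φ g) * X)
    (hno : ∀ T : Module.End k W, (∀ g, T * σ g = σ (φ g) * T) → T = 0) (w : W) :
    P (X (m w)) = 0 := by
  have h1 : (P ∘ₗ X ∘ₗ m : Module.End k W) = 0 := by
    apply hno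
    intro g
    ext w
    simp only [Module.End.mul_apply, LinearMap.coe_comp, Function.comp_apply]
    rw [hm, ← hP]
    have := congrArg (fun F => F (m w)) (hXρ g)
    simp only [Module.End.mul_apply] at this
    rw [this]
  exact congrArg (fun F => F w) h1

/-- powers -/
theorem pow_intertw (ρ : Q →* Module.End k V) (φ : MulAut Q) (X : Module.End k V)
    (hXρ : ∀ g, X * ρ g = ρ (φ g) * X) (i : ℕ) : ∀ g, X ^ i * ρ g = ρ ((φ ^ i) g) * X ^ i := by
  induction i with
  | zero => intro g; simp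
  | succ i ih =>
    intro g
    rw [pow_succ', mul_assoc, ih, ← mul_assoc, hXρ, mul_assoc, pow_succ' φ]
    rfl

/-- an irreducible submodule on which the normal subgroup `N` acts without fixed vectors -/
theorem exists_irr [Fintype Q] (hk : (Nat.card Q : k) ≠ 0) (ρ : Q →* Module.End k V) (N : Subgroup Q) [N.Normal]
    (hN : ∃ n ∈ N, ρ n ≠ 1) :
    ∃ (W : Submodule k V) (σ : Q →* Module.End k W), SIrr σ ∧ (∀ g (w : W), ((σ g w : W) : V) = ρ g w) ∧
      ∃ n ∈ N, σ n ≠ 1 := by
  classical
  letI : Fintype N := Fintype.ofFinite _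
  have hcN : (Fintype.card N : k) ≠ 0 := by
    rw [← Nat.card_eq_fintype_card]
    intro h
    apply hk
    obtain ⟨m, hm⟩ := Subgroup.card_subgroup_dvd_card N
    rw [hm, Nat.cast_mul, h, zero_mul]
  set e : Module.End k V := ∑ n : N, ρ n with he
  have he1 : ∀ n ∈ N, ρ n * e = e := by
    intro n hn
    rw [he, Finset.mul_sum, ← Equiv.sum_comp (Equiv.mulLeft (⟨n, hn⟩ : N)) (fun t : N => ρ t)]
    refine Finset.sum_congr rfl (fun t _ => ?_)
    rw [← map_mul]; rfl
  have he2 : ∀ g : Q, ρ g * e = e * ρ g := by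
    intro g
    have h1 : ∀ n : N, g * n * g⁻¹ ∈ N := fun n => Subgroup.Normal.conj_mem ‹N.Normal› n n.2 g
    rw [he, Finset.mul_sum, Finset.sum_mul,
      ← Equiv.sum_comp (MulAut.conjNormal g : N ≃* N).toEquiv (fun t : N => ρ t * ρ g)]
    refine Finset.sum_congr rfl (fun t _ => ?_)
    have h2 : (((MulAut.conjNormal g : N ≃* N).toEquiv t : N) : Q) = g * t * g⁻¹ := by
      show ((MulAut.conjNormal g t : N) : Q) = _
      rw [MulAut.conjNormal_apply]
    rw [h2, ← map_mul, ← map_mul]
    congr 1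
    group
  have hfixe : ∀ v, (∀ n ∈ N, ρ n v = v) → e v = (Fintype.card N : k) • v := by
    intro v hv
    rw [he, LinearMap.sum_apply, Finset.sum_congr rfl (fun (n : N) _ => hv n n.2), Finset.sum_const,
      Finset.card_univ, ← Nat.cast_smul_eq_nsmul k]
  -- `ker e` is invariant and nonzero
  have hker : LinearMap.ker e ≠ ⊥ := by
    intro h0
    obtain ⟨n, hn, hne⟩ := hN
    apply hne
    have hinj := LinearMap.ker_eq_bot.mp h0
    ext v
    have h1 : e * e = (Fintype.card N : k) • e := by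
      conv_lhs => rw [he, Finset.sum_mul]
      rw [Finset.sum_congr rfl (fun (n : N) _ => he1 n n.2), Finset.sum_const, Finset.card_univ,
        ← Nat.cast_smul_eq_nsmul k]
    have h2 : e v = (Fintype.card N : k) • v := by
      apply hinj
      rw [map_smul]
      exact congrArg (fun F => F v) h1
    have h3 : v = (Fintype.card N : k)⁻¹ • e v := by
      rw [h2, smul_smul, inv_mul_cancel₀ hcN, one_smul]
    rw [h3, map_smul]
    congr 1
    exact congrArg (fun F => F v) (he1 n hn)
  let S : Set (Submodule k V) := {U | U ≠ ⊥ ∧ U ≤ LinearMap.ker e ∧ ∀ g, ∀ u ∈ U, ρ g u ∈ U}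
  have hS : S.Nonempty := ⟨LinearMap.ker e, hker, le_rfl, fun g u hu => by
    rw [LinearMap.mem_ker] at hu ⊢
    have := congrArg (fun F => F u) (he2 g)
    simp only [Module.End.mul_apply] at this
    rw [← this, hu, map_zero]⟩
  obtain ⟨W, ⟨hW0, hWe, hWinv⟩, hWmin⟩ := (wellFounded_lt (α := Submodule k V)).has_min S hS
  let σ : Q →* Module.End k W :=
    { toFun := fun g => (ρ g).restrict (hWinv g)
      map_one' := by ext w; simp [LinearMap.restrict_apply]
      map_mul' := by intro a b; ext w; simp [LinearMap.restrict_apply] }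
  have hσ : ∀ g (w : W), ((σ g w : W) : V) = ρ g w := fun g w => rfl
  have hnt : Nontrivial W := Submodule.nontrivial_iff_ne_bot.mpr hW0
  refine ⟨W, σ, ⟨hnt, ?_⟩, hσ, ?_⟩
  · intro U hU
    by_cases hU0 : U = ⊥
    · exact Or.inl hU0
    right
    have h1 : U.map W.subtype ∈ S := by
      refine ⟨?_, ?_, ?_⟩
      · intro h0
        apply hU0
        rw [eq_bot_iff]
        intro u hu
        have h1 : (u : V) ∈ U.map W.subtype := ⟨u, hu, rfl⟩
        rw [h0] at h1
        exact (Submodule.mem_bot k).mpr (Subtype.ext ((Submodule.mem_bot k).mp h1))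
      · exact (Submodule.map_subtype_le W U).trans hWe
      · rintro g _ ⟨u, hu, rfl⟩
        exact ⟨σ g u, hU g u hu, rfl⟩
    have h2 := hWmin _ h1
    have h3 : U.map W.subtype = W := by
      by_contra hne
      exact h2 (lt_of_le_of_ne (Submodule.map_subtype_le W U) hne)
    rw [eq_top_iff]
    intro w _
    have h4 : (w : V) ∈ U.map W.subtype := by rw [h3]; exact w.2
    obtain ⟨u, hu, huw⟩ := h4
    have : u = w := Subtype.ext huw
    rw [← this]; exact hu
  · by_contra hcon
    push Not at hcon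
    obtain ⟨w, hw⟩ := exists_ne (0 : W)
    have h1 : e (w : V) = (Fintype.card N : k) • (w : V) := by
      apply hfixe
      intro n hn
      rw [← hσ, hcon n hn]; rfl
    have h2 : e (w : V) = 0 := hWe w.2
    rw [h2] at h1
    rcases smul_eq_zero.mp h1.symm with h | h
    · exact hcN h
    · exact hw (Subtype.ext h)

end Clifford

end Cfsg.Agent.H22.HH2
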