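import Cfsg.Agent.H22_HH2

/-!
# Hall-Higman theorem, abstract form: `p`-power order operator on a class two `q`-group
and the prime order semisimple version.
-/

set_option autoImplicit false
set_option linter.unusedSectionVars false
set_option linter.style.haveILetI false

namespace Cfsg.Agent.H22.HH3

open Module HH1 HH2

universe u v w

lemma arith1 {p n i : ℕ} (hp : p.Prime) (hi : i ≠ 0) :
    ∃ b c c', i = p ^ b * c ∧ ¬ p ∣ c ∧ (c * c') ≡ 1 [MOD p ^ n] := by
  obtain ⟨b, c, hc, hbc⟩ := Nat.exists_eq_pow_mul_and_not_dvd hi p hp.ne_one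
  have hcop : Nat.Coprime c (p ^ n) :=
    Nat.Coprime.pow_right n ((Nat.Prime.coprime_iff_not_dvd hp).mpr hc).symm
  rcases Nat.eq_zero_or_pos n with h | h
  · exact ⟨b, c, 1, hbc, hc, by rw [h, pow_zero]; exact Nat.modEq_one⟩
  · obtain ⟨m, hm⟩ := Nat.exists_mul_mod_eq_one_of_coprime hcop (Nat.one_lt_pow h.ne' hp.one_lt)
    refine ⟨b, c, m, hbc, hc, ?_⟩
    rw [Nat.ModEq, hm.2, Nat.mod_eq_of_lt (Nat.one_lt_pow h.ne' hp.one_lt)]

section Twist

variable {k : Type u} [Field k] {W : Type v} [AddCommGroup W] [Module k W] [FiniteDimensional k W]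
  {Q : Type w} [Group Q]

/-- `i` stabilizes the isomorphism type of `σ` -/
def Stab (σ : Q →* Module.End k W) (φ : MulAut Q) : Prop :=
  ∃ T : Module.End k W, T ≠ 0 ∧ ∀ g, T * σ g = σ (φ g) * T

lemma stab_pow {σ : Q →* Module.End k W} (h : SIrr σ) {φ : MulAut Q} (hs : Stab σ φ) (c : ℕ) :
    Stab σ (φ ^ c) := by
  obtain ⟨T, hT0, hT⟩ := hs
  have hTi : Function.Injective T := inj_of_ne h T (fun g w hw => by
    have := congrArg (fun F => F w) (hT g)
    simp only [Module.End.mul_apply] at this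
    rw [this, hw, map_zero]) hT0
  refine ⟨T ^ c, ?_, pow_intertw σ φ T hT c⟩
  intro h0
  obtain ⟨a, b, hab⟩ := h.1
  have hinj : Function.Injective (T ^ c) := by
    rw [Module.End.coe_pow]
    exact hTi.iterate c
  exact hab (hinj (by rw [h0]; rfl))

lemma stab_one {σ : Q →* Module.End k W} (h : SIrr σ) : Stab σ (1 : MulAut Q) := by
  haveI := h.1
  exact ⟨1, one_ne_zero, fun g => by simp⟩

lemma not_stab {σ : Q →* Module.End k W} {φ : MulAut Q} (h : ¬ Stab σ φ) :
    ∀ T : Module.End k W, (∀ g, T * σ g = σ (φ g) * T) → T = 0 := by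
  intro T hT
  by_contra h0
  exact h ⟨T, h0, hT⟩

end Twist

section Num

/-- numerical lemma for the unipotent case -/
lemma num_unip {h N s : ℕ} (hs2 : 2 ≤ s) (hsN : s ≤ N) (hsh : s < h)
    (hle : h * N ^ 2 ≤ s * (h + N ^ 2 - 1)) : s = h - 1 ∧ N = s := by
  obtain ⟨d, rfl⟩ : ∃ d, h = s + 1 + d := ⟨h - s - 1, by omega⟩
  have h1 : s + 1 + d + N ^ 2 - 1 = s + d + N ^ 2 := by omega
  rw [h1] at hle
  obtain ⟨e, rfl⟩ : ∃ e, N = s + e := ⟨N - s, by omega⟩
  have h2 : (1 + d) * (s + e) ^ 2 ≤ s * (s + d) := by nlinarith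
  have hd : d = 0 := by
    by_contra hd
    have hd1 : 1 ≤ d := Nat.one_le_iff_ne_zero.mpr hd
    have h3 : (1 + d) * s ^ 2 ≤ s * (s + d) := by
      refine le_trans (Nat.mul_le_mul_left _ (Nat.pow_le_pow_left (Nat.le_add_right s e) 2)) h2
    have h4 : d * s ^ 2 ≤ s * d := by nlinarith
    have h5 : s * d < d * s ^ 2 := by nlinarith [Nat.mul_pos (show 0 < s by omega) hd1]
    omega
  subst hd
  have he : e = 0 := by
    by_contra he
    have : 1 ≤ e := Nat.one_le_iff_ne_zero.mpr he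
    nlinarith
  omega

end Num

section BB

variable {k : Type u} [Field k] [IsAlgClosed k] {V : Type v} [AddCommGroup V] [Module k V]
  [FiniteDimensional k V] {Q : Type w} [Group Q] [Fintype Q]

lemma end_charP (p : ℕ) [CharP k p] [Nontrivial V] : CharP (Module.End k V) p :=
  charP_of_injective_algebraMap (FaithfulSMul.algebraMap_injective k (Module.End k V)) p

lemma sub_one_pow (p : ℕ) [Fact p.Prime] [CharP k p] (X : Module.End k V) (a : ℕ) :
    (X - 1) ^ p ^ a = X ^ p ^ a - 1 := by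
  have h1 : ((Polynomial.X : Polynomial k) - 1) ^ p ^ a = Polynomial.X ^ p ^ a - 1 := by
    rw [sub_pow_char_pow, one_pow]
  have h2 := congrArg (Polynomial.aeval X) h1
  simpa using h2

lemma geom (p : ℕ) [hp : Fact p.Prime] [CharP k p] (X : Module.End k V) (a : ℕ) :
    (X - 1) ^ (p ^ a - 1) = ∑ i ∈ Finset.range (p ^ a), X ^ i := by
  have h1 : ((Polynomial.X : Polynomial k) - 1) ^ (p ^ a - 1) =
      ∑ i ∈ Finset.range (p ^ a), Polynomial.X ^ i := by
    have h0 : (Polynomial.X : Polynomial k) - 1 ≠ 0 := by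
      have := Polynomial.X_sub_C_ne_zero (1 : k)
      simpa using this
    apply mul_right_cancel₀ h0
    rw [← pow_succ, Nat.sub_add_cancel (Nat.one_le_pow _ _ hp.out.pos), geom_sum_mul,
      sub_pow_char_pow, one_pow]
  have h2 := congrArg (Polynomial.aeval X) h1
  simpa using h2

lemma lprod_replicate (T : Module.End k V) (s : ℕ) :
    lprod T (List.replicate s (1 : k)) = (T - 1) ^ s := by
  induction s with
  | zero => simp [lprod]
  | succ s ih => rw [List.replicate_succ, lprod_cons, ih, map_one, pow_succ']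

/-- powers and invariance modulo a normal subgroup -/
lemma mod_pow {N : Subgroup Q} (ψ : MulAut Q) (hNψ : ∀ g ∈ N, ψ g ∈ N) (g : Q)
    (hg : g⁻¹ * ψ g ∈ N) (j : ℕ) : g⁻¹ * (ψ ^ j) g ∈ N := by
  induction j with
  | zero => simp
  | succ j ih =>
    have h1 : g⁻¹ * (ψ ^ (j + 1)) g = (g⁻¹ * ψ g) * ψ (g⁻¹ * (ψ ^ j) g) := by
      rw [map_mul, map_inv, pow_succ' ψ, MulAut.mul_apply]
      group
    rw [h1]
    exact N.mul_mem hg (hNψ _ ih)

lemma inv_pow {N : Subgroup Q} (ψ : MulAut Q) (hNψ : ∀ g ∈ N, ψ g ∈ N) (j : ℕ) :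
    ∀ g ∈ N, (ψ ^ j) g ∈ N := by
  induction j with
  | zero => intro g hg; simpa using hg
  | succ j ih =>
    intro g hg
    rw [pow_succ' ψ, MulAut.mul_apply]
    exact hNψ _ (ih g hg)

/-- the abstract Hall-Higman theorem -/
theorem BB (p q : ℕ) [hp : Fact p.Prime] [hq : Fact q.Prime] (hpq : p ≠ q) [CharP k p]
    (hQ : IsPGroup q Q) (hcl : Cl2 Q) (ρ : Q →* Module.End k V) (φ : MulAut Q)
    (X : Module.End k V) (n : ℕ) (hn : 1 ≤ n) (hφ : φ ^ p ^ n = 1) (hX1 : X ^ p ^ n = 1)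
    (hXρ : ∀ g, X * ρ g = ρ (φ g) * X)
    (hfp : ∀ N : Subgroup Q, N.Normal → Subgroup.center Q ≤ N →
      (∀ g ∈ N, (φ ^ p ^ (n - 1)) g ∈ N) → ∀ g, g⁻¹ * (φ ^ p ^ (n - 1)) g ∈ N → g ∈ N)
    (hgen : ∀ N : Subgroup Q, N.Normal → (∀ g, g⁻¹ * (φ ^ p ^ (n - 1)) g ∈ N) → N = ⊤)
    (hρ : ∃ g, ρ g ≠ 1) :
    (X - 1) ^ (p ^ n - 1) ≠ 0 ∨ ∃ n₀ m : ℕ, 1 ≤ n₀ ∧ n₀ ≤ n ∧ 1 ≤ m ∧ p ^ n₀ - 1 = q ^ m ∧
      (∃ a b : Q, a * b ≠ b * a) ∧ (X - 1) ^ (p ^ (n - n₀) * (p ^ n₀ - 1) - 1) ≠ 0 := by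
  classical
  have hk : (Nat.card Q : k) ≠ 0 := by
    obtain ⟨c, hc⟩ := IsPGroup.iff_card.mp hQ
    rw [hc, Nat.cast_pow]
    refine pow_ne_zero _ ?_
    intro h0
    rw [CharP.cast_eq_zero_iff k p] at h0
    exact hpq ((Nat.prime_dvd_prime_iff_eq hp.out hq.out).mp h0)
  haveI : (⊤ : Subgroup Q).Normal := inferInstance
  obtain ⟨W, σ, hσ, hσρ, g₀, -, hg₀⟩ := exists_irr hk ρ ⊤ (by
    obtain ⟨g, hg⟩ := hρ
    exact ⟨g, Subgroup.mem_top g, hg⟩)
  haveI := hσ.1
  have hex : ∃ a, Stab σ (φ ^ p ^ a) := ⟨n, by rw [hφ]; exact stab_one hσ⟩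
  set a := Nat.find hex with ha
  have haS : Stab σ (φ ^ p ^ a) := Nat.find_spec hex
  have hamin : ∀ b < a, ¬ Stab σ (φ ^ p ^ b) := fun b hb => Nat.find_min hex hb
  have han : a ≤ n := Nat.find_min' hex (by rw [hφ]; exact stab_one hσ)
  have hno : ∀ i, 0 < i → i < p ^ a → ¬ Stab σ (φ ^ i) := by
    intro i hi hia hS
    obtain ⟨b, c, c', hbc, hc, hcc⟩ := arith1 (n := n) hp.out hi.ne'
    have h1 := stab_pow hσ hS c'
    have h2 : (φ ^ i) ^ c' = φ ^ p ^ b := by
      rw [← pow_mul, hbc, mul_assoc, pow_mul]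
      have h3 : (φ ^ p ^ b) ^ p ^ n = 1 := by rw [← pow_mul, mul_comm, pow_mul, hφ, one_pow]
      conv_rhs => rw [← pow_one (φ ^ p ^ b)]
      exact pow_eq_pow_of_modEq hcc h3
    rw [h2] at h1
    refine hamin b ?_ h1
    by_contra hba
    have h3 : p ^ a ∣ i := by
      rw [hbc]
      exact Dvd.dvd.mul_right (pow_dvd_pow p (not_lt.mp hba)) c
    exact absurd (Nat.le_of_dvd hi h3) (not_le.mpr hia)
  set ψ := φ ^ p ^ a with hψ
  set Y := X ^ p ^ a with hY
  have hXu : IsUnit X := by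
    have h1 : X ^ (p ^ n - 1) * X = 1 := by
      rw [← pow_succ, Nat.sub_add_cancel (Nat.one_le_pow _ _ hp.out.pos), hX1]
    have h2 : X * X ^ (p ^ n - 1) = 1 := by
      rw [← pow_succ', Nat.sub_add_cancel (Nat.one_le_pow _ _ hp.out.pos), hX1]
    exact ⟨⟨X, X ^ (p ^ n - 1), h2, h1⟩, rfl⟩
  obtain ⟨T₀, hT₀0, hT₀⟩ := haS
  obtain ⟨T, m, hTu, hTσ, hmi, hm, hYm⟩ := extend hσ ρ W.subtype (by
    intro h0
    obtain ⟨w, hw⟩ := exists_ne (0 : W)
    exact hw (Subtype.ext (congrArg (fun F => F w) h0))) (fun g w => hσρ g w) ψ Y (hXu.pow _)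
    (pow_intertw ρ φ X hXρ (p ^ a)) T₀ hT₀0 hT₀
  obtain ⟨P, hPm, hPρ⟩ := exists_proj hk ρ m hmi hm
  set h := p ^ (n - a) with hh
  have hah : p ^ a * h = p ^ n := by rw [hh, ← pow_add]; congr 1; omega
  have hψh : ψ ^ h = 1 := by rw [hψ, ← pow_mul, hah, hφ]
  have hYpow : ∀ i w, (Y ^ i) (m w) = m ((T ^ i) w) := by
    intro i
    induction i with
    | zero => intro w; simp
    | succ i ih => intro w; rw [pow_succ', pow_succ', Module.End.mul_apply, Module.End.mul_apply, ih, hYm]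
  have hY1 : Y ^ h = 1 := by rw [hY, ← pow_mul, hah, hX1]
  have hTh : T ^ h = 1 := by
    refine LinearMap.ext fun w => ?_
    apply hmi
    rw [← hYpow, hY1]; rfl
  have hTh0 : (T - 1) ^ h = 0 := by
    rw [hh, sub_one_pow p T (n - a), ← hh, hTh, sub_self]
  have hex2 : ∃ s, (T - 1) ^ s = 0 := ⟨h, hTh0⟩
  set s := Nat.find hex2 with hs
  have hs0 : (T - 1) ^ s = 0 := Nat.find_spec hex2
  have hsmin : ∀ t < s, (T - 1) ^ t ≠ 0 := fun t ht => Nat.find_min hex2 ht
  have hsh : s ≤ h := Nat.find_min' hex2 hTh0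
  have hs1 : 1 ≤ s := by
    by_contra hcon
    have : s = 0 := by omega
    rw [this, pow_zero] at hs0
    exact one_ne_zero hs0
  -- the main nonvanishing
  have key : (X - 1) ^ (p ^ a * s - 1) ≠ 0 := by
    intro h0
    have h1 := hsmin (s - 1) (by omega)
    obtain ⟨w₀, hw₀⟩ : ∃ w₀, ((T - 1) ^ (s - 1)) w₀ ≠ 0 := by
      by_contra hcon
      push Not at hcon
      exact h1 (LinearMap.ext hcon)
    set w := ((T - 1) ^ (s - 1)) w₀ with hw
    have hYs : ∀ (i : ℕ) (w : W), ((Y - 1) ^ i) (m w) = m (((T - 1) ^ i) w) := by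
      intro i
      induction i with
      | zero => intro w; simp
      | succ i ih =>
        intro w
        rw [pow_succ', pow_succ', Module.End.mul_apply, Module.End.mul_apply, ih,
          LinearMap.sub_apply, LinearMap.sub_apply, hYm, map_sub]
        rfl
    have h2 : p ^ a * s - 1 = (p ^ a - 1) + p ^ a * (s - 1) := by
      obtain ⟨t, ht⟩ : ∃ t, s = t + 1 := ⟨s - 1, by omega⟩
      have h3 : 1 ≤ p ^ a := Nat.one_le_pow _ _ hp.out.pos
      rw [ht, Nat.add_sub_cancel, mul_add, mul_one]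
      omega
    have h3 : ((X - 1) ^ (p ^ a * s - 1)) (m w₀) = ∑ i ∈ Finset.range (p ^ a), (X ^ i) (m w) := by
      rw [h2, pow_add, pow_mul, sub_one_pow p X a, ← hY, Module.End.mul_apply, hYs, ← hw, geom p X a,
        LinearMap.sum_apply]
    rw [h0] at h3
    have h4 := congrArg P h3
    rw [LinearMap.zero_apply, map_zero, map_sum, Finset.sum_eq_single 0] at h4
    · rw [pow_zero, Module.End.one_apply, hPm] at h4
      exact hw₀ h4.symm
    · intro i hi hi0
      exact proj_zero ρ m hm P hPρ (φ ^ i) (X ^ i) (pow_intertw ρ φ X hXρ i)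
        (not_stab (hno i (Nat.pos_of_ne_zero hi0) (Finset.mem_range.mp hi))) w
    · intro hcon
      exact absurd (Finset.mem_range.mpr (Nat.pow_pos hp.out.pos)) hcon
  by_cases hsh' : s = h
  · left
    rwa [hsh', hah] at key
  have hslt : s < h := lt_of_le_of_ne hsh hsh'
  right
  -- the exceptional case
  have haltn : a < n := by
    by_contra hcon
    have : n - a = 0 := by omega
    rw [hh, this, pow_zero] at hslt
    omega
  have hφψ : (ψ ^ p ^ (n - 1 - a)) = φ ^ p ^ (n - 1) := by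
    rw [hψ, ← pow_mul, ← pow_add]; congr 2; omega
  have hSψ : ∀ g ∈ scal σ, ψ g ∈ scal σ := by
    rintro z ⟨c, hc⟩
    refine ⟨c, ?_⟩
    have h3 := hTσ z
    rw [hc, ← Algebra.commutes] at h3
    exact (hTu.mul_left_inj.mp h3).symm
  have hs2 : 2 ≤ s := by
    by_contra hcon
    have hs1' : s = 1 := by omega
    rw [hs1', pow_one] at hs0
    have hT1 : T = 1 := sub_eq_zero.mp hs0
    have h1 : ∀ g, g⁻¹ * ψ g ∈ σ.ker := by
      intro g
      have h2 := hTσ g
      rw [hT1, one_mul, mul_one] at h2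
      rw [MonoidHom.mem_ker, map_mul, ← h2, ← map_mul, inv_mul_cancel, map_one]
    have h2 : ∀ g ∈ σ.ker, ψ g ∈ σ.ker := by
      intro g hg
      have h3 := hTσ g
      rw [hT1, one_mul, mul_one] at h3
      rw [MonoidHom.mem_ker] at hg ⊢
      rw [← h3, hg]
    have h3 := hgen σ.ker inferInstance (fun g => by
      rw [← hφψ]
      exact mod_pow ψ h2 g (h1 g) _)
    apply hg₀
    have h4 : g₀ ∈ σ.ker := by rw [h3]; exact Subgroup.mem_top _
    exact h4
  have hsN : s ≤ finrank k W := by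
    apply Nat.find_min' hex2
    have h1 : LinearMap.ker ((T - 1) ^ h) = ⊤ := by rw [hTh0]; exact LinearMap.ker_zero
    have h2 := Module.End.ker_pow_le_ker_pow_finrank (T - 1) h
    rw [h1, top_le_iff] at h2
    exact LinearMap.ker_eq_top.mp h2
  have hineq := basic hσ hcl hk ψ T hTu hTσ (List.replicate s (1 : k))
    (by rw [lprod_replicate]; exact hs0) h (Nat.pow_pos hp.out.pos) hψh (by
      intro i hi hih g hg
      obtain ⟨b, c, c', hbc, hc, hcc⟩ := arith1 (n := n) hp.out hi.ne'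
      have hb : b < n - a := by
        by_contra hba
        have h3 : h ∣ i := by
          rw [hbc, hh]
          exact Dvd.dvd.mul_right (pow_dvd_pow p (not_lt.mp hba)) c
        exact absurd (Nat.le_of_dvd hi h3) (not_le.mpr hih)
      have h1 : (ψ ^ i) ^ (c' * p ^ (n - 1 - a - b)) = φ ^ p ^ (n - 1) := by
        rw [hψ, ← pow_mul, ← pow_mul, hbc]
        have e1 : p ^ a * (p ^ b * c * (c' * p ^ (n - 1 - a - b))) = p ^ (n - 1) * (c * c') := by
          have : p ^ (n - 1) = p ^ a * p ^ b * p ^ (n - 1 - a - b) := by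
            rw [← pow_add, ← pow_add]; congr 1; omega
          rw [this]; ring
        rw [e1, pow_mul]
        have h3 : (φ ^ p ^ (n - 1)) ^ p ^ n = 1 := by rw [← pow_mul, mul_comm, pow_mul, hφ, one_pow]
        conv_rhs => rw [← pow_one (φ ^ p ^ (n - 1))]
        exact pow_eq_pow_of_modEq hcc h3
      refine hfp (scal σ) (scal_normal σ) (center_le_scal hσ) ?_ g ?_
      · rw [← hφψ]
        exact inv_pow ψ hSψ _
      · rw [← h1]
        exact mod_pow (ψ ^ i) (inv_pow ψ hSψ i) g hg _)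
  rw [List.length_replicate] at hineq
  obtain ⟨hs3, hNs⟩ := num_unip hs2 hsN hslt hineq
  have hidx := index_scal hσ hcl hk
  have hpow : ∃ m, finrank k W = q ^ m := by
    obtain ⟨c, hc⟩ := hQ.index (scal σ)
    rw [hidx] at hc
    have h1 : finrank k W ∣ q ^ c := by
      rw [← hc]; exact dvd_pow_self _ two_ne_zero
    obtain ⟨m, -, hm⟩ := (Nat.dvd_prime_pow hq.out).mp h1
    exact ⟨m, hm⟩
  obtain ⟨e, he⟩ := hpow
  refine ⟨n - a, e, by omega, by omega, ?_, ?_, ?_, ?_⟩
  · by_contra hcon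
    have : e = 0 := by omega
    rw [this, pow_zero] at he
    omega
  · rw [← he, hNs, hs3]
  · by_contra hcon
    push Not at hcon
    have h1 : scal σ = ⊤ := by
      rw [eq_top_iff]
      intro g _
      exact center_le_scal hσ (Subgroup.mem_center_iff.mpr (fun t => hcon t g))
    rw [h1, Subgroup.index_top] at hidx
    have : 2 ^ 2 ≤ (finrank k W) ^ 2 := Nat.pow_le_pow_left (by omega) 2
    omega
  · have h1 : n - (n - a) = a := by omega
    rw [h1, ← hh, ← hs3]
    exact key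

end BB

section SS

variable {k : Type u} [Field k] [IsAlgClosed k] {V : Type v} [AddCommGroup V] [Module k V]
  [FiniteDimensional k V] {Q : Type w} [Group Q] [Fintype Q]

/-- semiregular automorphism of the quotient: the order divides `|Q/S| - 1` -/
theorem dvd_index_sub (S : Subgroup Q) [hSn : S.Normal] (φ : MulAut Q) (h : ℕ) (hpos : 0 < h)
    (hφS : ∀ z ∈ S, φ z ∈ S) (h1 : ∀ g, g⁻¹ * (φ ^ h) g ∈ S)
    (h2 : ∀ i, 0 < i → i < h → ∀ g, g⁻¹ * (φ ^ i) g ∈ S → g ∈ S) (htop : S ≠ ⊤) :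
    h ∣ S.index - 1 := by
  classical
  have hmap : S.map (φ : Q ≃* Q).toMonoidHom = S := by
    apply Subgroup.eq_of_le_of_card_ge
    · rintro _ ⟨z, hz, rfl⟩
      exact hφS z hz
    · rw [Subgroup.card_map_of_injective (φ : Q ≃* Q).injective]
  let σ : MulAut (Q ⧸ S) := QuotientGroup.congr S S φ hmap
  have hσ : ∀ (i : ℕ) (g : Q), (σ ^ i) (g : Q ⧸ S) = (((φ ^ i) g : Q) : Q ⧸ S) := by
    intro i
    induction i with
    | zero => intro g; rfl
    | succ i ih =>
      intro g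
      rw [pow_succ', pow_succ', MulAut.mul_apply, ih, MulAut.mul_apply]
      rfl
  obtain ⟨g₀, hg₀⟩ : ∃ g₀, g₀ ∉ S := by
    by_contra hcon
    push Not at hcon
    exact htop (eq_top_iff.mpr fun g _ => hcon g)
  have hord : orderOf σ = h := by
    rw [orderOf_eq_iff hpos]
    constructor
    · ext q
      obtain ⟨g, rfl⟩ := QuotientGroup.mk_surjective q
      rw [hσ]
      exact (QuotientGroup.eq.mpr (h1 g)).symm
    · intro m hm hm0 hcon
      apply hg₀
      refine h2 m hm0 hm g₀ ?_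
      rw [← QuotientGroup.eq, ← hσ, hcon]
      rfl
  letI : Fintype (Q ⧸ S) := Fintype.ofFinite _
  letI : Fintype (Subgroup.zpowers σ) := Fintype.ofFinite _
  letI : ∀ a : Subgroup.zpowers σ, Fintype (MulAction.fixedBy (Q ⧸ S) a) := fun a => Fintype.ofFinite _
  letI : Fintype (Quotient (MulAction.orbitRel (Subgroup.zpowers σ) (Q ⧸ S))) := Fintype.ofFinite _
  have hburn := MulAction.sum_card_fixedBy_eq_card_orbits_mul_card_group (Subgroup.zpowers σ) (Q ⧸ S)
  have hfix : ∀ a : Subgroup.zpowers σ, Fintype.card (MulAction.fixedBy (Q ⧸ S) a) =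
      1 + if a = 1 then (S.index - 1) else 0 := by
    intro a
    split_ifs with ha
    · have e1 : MulAction.fixedBy (Q ⧸ S) a = Set.univ := by
        rw [ha]; ext q; simp
      rw [← Nat.card_eq_fintype_card, e1, Nat.card_univ]
      have : 0 < S.index := Nat.pos_of_ne_zero S.index_ne_zero_of_finite
      change S.index = _
      omega
    · rw [add_zero]
      have e1 : MulAction.fixedBy (Q ⧸ S) a = {1} := by
        ext q
        constructor
        · intro hq
          obtain ⟨g, rfl⟩ := QuotientGroup.mk_surjective q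
          obtain ⟨n, hn⟩ := (mem_powers_iff_mem_zpowers (x := σ)).mpr a.2
          have hn' : σ ^ (n % h) = a.1 := by
            rw [← hord, pow_mod_orderOf]; exact hn
          have hpos' : 0 < n % h := by
            rcases Nat.eq_zero_or_pos (n % h) with h0 | h0
            · exfalso
              apply ha
              apply Subtype.ext
              rw [← hn', h0]; rfl
            · exact h0
          have hlt : n % h < h := Nat.mod_lt _ hpos
          have hq' : a.1 (g : Q ⧸ S) = (g : Q ⧸ S) := hq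
          rw [← hn', hσ] at hq'
          have := h2 _ hpos' hlt g (QuotientGroup.eq.mp hq'.symm)
          rw [Set.mem_singleton_iff]
          exact (QuotientGroup.eq_one_iff g).mpr this
        · rintro rfl
          show a.1 1 = 1
          exact map_one _
      rw [← Nat.card_eq_fintype_card, e1]
      simp
  rw [Finset.sum_congr rfl (fun a _ => hfix a), Finset.sum_add_distrib, Finset.sum_const,
    Finset.sum_ite_eq' Finset.univ (1 : Subgroup.zpowers σ), Finset.card_univ, smul_eq_mul,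
    mul_one, ← Nat.card_eq_fintype_card, ← Nat.card_eq_fintype_card, Nat.card_zpowers, hord] at hburn
  simp only [Finset.mem_univ, if_true] at hburn
  have h3 : h ∣ h + (S.index - 1) := by
    rw [hburn]
    exact dvd_mul_left _ _
  exact (Nat.dvd_add_right (dvd_refl h)).mp h3

lemma num_ss {r N : ℕ} (hr : 2 ≤ r) (h : r * N ^ 2 ≤ (r - 1) * (r + N ^ 2 - 1)) : N ≤ r - 1 := by
  obtain ⟨t, rfl⟩ : ∃ t, r = t + 1 := ⟨r - 1, by omega⟩
  have h1 : t + 1 + N ^ 2 - 1 = t + N ^ 2 := by omega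
  rw [h1, Nat.add_sub_cancel] at h
  have h2 : N ^ 2 ≤ t ^ 2 := by nlinarith
  rw [Nat.add_sub_cancel]
  exact (Nat.pow_le_pow_iff_left two_ne_zero).mp h2

theorem SS (q r : ℕ) [hq : Fact q.Prime] (hr : r.Prime) (hkq : (q : k) ≠ 0)
    (hQ : IsPGroup q Q) (hqr : q ≠ r) (hcl : Cl2 Q) (ρ : Q →* Module.End k V)
    (φ : MulAut Q) (hφ : φ ^ r = 1) (X : Module.End k V) (hX0 : ∑ i ∈ Finset.range r, X ^ i = 0)
    (hXρ : ∀ g, X * ρ g = ρ (φ g) * X)
    {W : Type v} [AddCommGroup W] [Module k W] [FiniteDimensional k W] {σ : Q →* Module.End k W}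
    (hσ : SIrr σ) (j : W →ₗ[k] V) (hji : Function.Injective j)
    (hj : ∀ g w, j (σ g w) = ρ g (j w))
    (hfp : (∀ g ∈ scal σ, φ g ∈ scal σ) → ∀ g, g⁻¹ * φ g ∈ scal σ → g ∈ scal σ)
    (hmv : ∃ g, σ (φ g) ≠ σ g) :
    q = 2 ∧ ∃ n : ℕ, 1 ≤ n ∧ r = 2 ^ n + 1 ∧ (scal σ).index = 2 ^ (2 * n) := by
  classical
  haveI := hσ.1
  have hk : (Nat.card Q : k) ≠ 0 := by
    obtain ⟨c, hc⟩ := IsPGroup.iff_card.mp hQ
    rw [hc, Nat.cast_pow]
    exact pow_ne_zero _ hkq
  have hX1 : X ^ r = 1 := by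
    have h1 := mul_geom_sum X r
    rw [hX0, mul_zero] at h1
    exact (sub_eq_zero.mp h1.symm)
  have hXu : IsUnit X := by
    have h1 : X ^ (r - 1) * X = 1 := by
      rw [← pow_succ, Nat.sub_add_cancel hr.one_lt.le, hX1]
    have h2 : X * X ^ (r - 1) = 1 := by
      rw [← pow_succ', Nat.sub_add_cancel hr.one_lt.le, hX1]
    exact ⟨⟨X, X ^ (r - 1), h2, h1⟩, rfl⟩
  have hpow : ∀ i, 0 < i → i < r → ∃ c, (φ ^ i) ^ c = φ := by
    intro i hi hir
    have hcop : Nat.Coprime i r := ((Nat.Prime.coprime_iff_not_dvd hr).mpr (fun hd => absurd (Nat.le_of_dvd hi hd) (not_le.mpr hir))).symm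
    obtain ⟨c, -, hc⟩ := Nat.exists_mul_mod_eq_one_of_coprime hcop hr.one_lt
    refine ⟨c, ?_⟩
    rw [← pow_mul]
    conv_rhs => rw [← pow_one φ]
    apply pow_eq_pow_of_modEq _ hφ
    rw [Nat.ModEq, hc, Nat.mod_eq_of_lt hr.one_lt]
  have hS : Stab σ φ := by
    by_contra hno
    obtain ⟨P, hPm, hPρ⟩ := exists_proj hk ρ j hji hj
    obtain ⟨w, hw⟩ := exists_ne (0 : W)
    have h3 : (∑ i ∈ Finset.range r, X ^ i) (j w) = 0 := by rw [hX0]; rfl
    rw [LinearMap.sum_apply] at h3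
    have h4 := congrArg P h3
    rw [map_zero, map_sum, Finset.sum_eq_single 0] at h4
    · rw [pow_zero, Module.End.one_apply, hPm] at h4
      exact hw h4
    · intro i hi hi0
      refine proj_zero ρ j hj P hPρ (φ ^ i) (X ^ i) (pow_intertw ρ φ X hXρ i)
        (not_stab (fun hst => hno ?_)) w
      obtain ⟨c, hc⟩ := hpow i (Nat.pos_of_ne_zero hi0) (Finset.mem_range.mp hi)
      rw [← hc]
      exact stab_pow hσ hst c
    · intro hcon
      exact absurd (Finset.mem_range.mpr hr.pos) hcon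
  obtain ⟨T₀, hT₀0, hT₀⟩ := hS
  obtain ⟨T, m, hTu, hTσ, hmi, hm, hXm⟩ := extend hσ ρ j (by
    rintro rfl
    obtain ⟨w, hw⟩ := exists_ne (0 : W)
    exact hw (hji (by simp))) hj φ X hXu hXρ T₀ hT₀0 hT₀
  have hXpow : ∀ (i : ℕ) (w : W), (X ^ i) (m w) = m ((T ^ i) w) := by
    intro i
    induction i with
    | zero => intro w; simp
    | succ i ih => intro w; rw [pow_succ', pow_succ', Module.End.mul_apply, Module.End.mul_apply, ih, hXm]
  have hT0 : ∑ i ∈ Finset.range r, T ^ i = 0 := by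
    refine LinearMap.ext fun w => ?_
    apply hmi
    rw [LinearMap.sum_apply, map_sum, Finset.sum_congr rfl (fun i _ => (hXpow i w).symm),
      ← LinearMap.sum_apply, hX0, LinearMap.zero_apply, LinearMap.zero_apply, map_zero]
  -- factorization
  haveI := Fact.mk hr
  obtain ⟨l, hll, hl⟩ : ∃ l : List k, l.length = r - 1 ∧ lprod T l = 0 := by
    have hf := IsAlgClosed.splits (Polynomial.cyclotomic r k)
    refine ⟨(Polynomial.cyclotomic r k).roots.toList, ?_, ?_⟩
    · rw [Multiset.length_toList, ← hf.natDegree_eq_card_roots, Polynomial.natDegree_cyclotomic,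
        Nat.totient_prime hr]
    · have h1 : ∀ l : List k, lprod T l = Polynomial.aeval T
          ((l.map (fun c => Polynomial.X - Polynomial.C c)).prod) := by
        intro l
        rw [lprod, map_list_prod, List.map_map]
        congr 1
        apply List.map_congr_left
        intro c _
        simp
      rw [h1]
      have h2 := hf.eq_prod_roots_of_monic (Polynomial.cyclotomic.monic r k)
      have h3 : ((Polynomial.cyclotomic r k).roots.toList.map
          (fun c => Polynomial.X - Polynomial.C c)).prod = Polynomial.cyclotomic r k := by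
        conv_rhs => rw [h2]
        rw [← Multiset.prod_coe, ← Multiset.map_coe, Multiset.coe_toList]
      rw [h3, Polynomial.cyclotomic_prime, map_sum]
      simpa using hT0
  have hSφ : ∀ g ∈ scal σ, φ g ∈ scal σ := by
    rintro z ⟨c, hc⟩
    refine ⟨c, ?_⟩
    have h3 := hTσ z
    rw [hc, ← Algebra.commutes] at h3
    exact (hTu.mul_left_inj.mp h3).symm
  have hsr : ∀ i, 0 < i → i < r → ∀ g, g⁻¹ * (φ ^ i) g ∈ scal σ → g ∈ scal σ := by
    intro i hi hir g hg
    obtain ⟨c, hc⟩ := hpow i hi hir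
    refine hfp hSφ g ?_
    have := mod_pow (φ ^ i) (inv_pow φ hSφ i) g hg c
    rwa [hc] at this
  have hineq := basic hσ hcl hk φ T hTu hTσ l hl r hr.pos hφ hsr
  rw [hll] at hineq
  have hN1 := num_ss hr.two_le hineq
  have hidx := index_scal hσ hcl hk
  have htop : scal σ ≠ ⊤ := by
    intro htop
    obtain ⟨g, hg⟩ := hmv
    apply hg
    have h1 : g ∈ scal σ := by rw [htop]; exact Subgroup.mem_top _
    obtain ⟨c, hc⟩ := h1
    have h3 := hTσ g
    rw [hc, ← Algebra.commutes] at h3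
    rw [hc]
    exact (hTu.mul_left_inj.mp h3).symm
  haveI := scal_normal σ
  have hdvd := dvd_index_sub (scal σ) φ r hr.pos hSφ (by
    intro g
    rw [hφ]
    simp only [MulAut.one_apply, inv_mul_cancel]
    exact one_mem _) hsr htop
  set N := finrank k W with hN
  have hN2 : 2 ≤ N := by
    by_contra hcon
    have h1 : N = 0 ∨ N = 1 := by omega
    rcases h1 with h1 | h1
    · rw [h1] at hidx
      exact (scal σ).index_ne_zero_of_finite hidx
    · rw [h1, one_pow, Subgroup.index_eq_one] at hidx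
      exact htop hidx
  have hr1 : r ≤ N + 1 := by
    rw [hidx] at hdvd
    have h1 : N ^ 2 - 1 = (N + 1) * (N - 1) := by
      obtain ⟨t, ht⟩ : ∃ t, N = t + 1 := ⟨N - 1, by omega⟩
      rw [ht]
      have : (t + 1) ^ 2 - 1 = t ^ 2 + 2 * t := by
        have : (t + 1) ^ 2 = t ^ 2 + 2 * t + 1 := by ring
        omega
      rw [this, Nat.add_sub_cancel]; ring
    rw [h1] at hdvd
    rcases (Nat.Prime.dvd_mul hr).mp hdvd with h | h
    · exact Nat.le_of_dvd (by omega) h
    · exact (Nat.le_of_dvd (by omega) h).trans (by omega)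
  have hrN : r = N + 1 := by omega
  obtain ⟨e, he⟩ : ∃ m, N = q ^ m := by
    obtain ⟨c, hc⟩ := hQ.index (scal σ)
    rw [hidx] at hc
    have h1 : N ∣ q ^ c := by
      rw [← hc]; exact dvd_pow_self _ two_ne_zero
    obtain ⟨m, -, hm⟩ := (Nat.dvd_prime_pow hq.out).mp h1
    exact ⟨m, hm⟩
  have he1 : 1 ≤ e := by
    by_contra hcon
    have : e = 0 := by omega
    rw [this, pow_zero] at he
    omega
  have hq2 : q = 2 := by
    rcases hq.out.eq_two_or_odd' with h | h
    · exact h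
    · exfalso
      have h1 : Odd N := by rw [he]; exact h.pow
      have h2 : Even r := by rw [hrN]; exact h1.add_one
      have h3 := (Nat.Prime.even_iff hr).mp h2
      omega
  subst hq2
  refine ⟨rfl, e, he1, by rw [hrN, he], ?_⟩
  rw [hidx, he, ← pow_mul, mul_comm]

end SS

end Cfsg.Agent.H22.HH3
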