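import Cfsg.Agent.H22_HH3
import Cfsg.Agent.H12_PStab2
import Cfsg.Agent.H22_Minimal

/-!
# From elementary abelian sections to representations over an algebraically closed field
-/

set_option autoImplicit false
set_option linter.unusedSectionVars false
set_option linter.style.haveILetI false

namespace Cfsg.Agent.H22.HH4

open Module Subgroup HH1 HH2 HH3
open scoped TensorProduct

universe u

theorem baseChange_inj {F k : Type*} [Field F] [Field k] [Algebra F k] {V : Type*} [AddCommGroup V] [Module F V] :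
    Function.Injective (Module.End.baseChangeHom F k V) := by
  intro f g hfg
  ext v
  apply Module.FaithfullyFlat.tensorProduct_mk_injective (A := F) (B := k) V
  have := congrArg (fun F' => F' ((1 : k) ⊗ₜ[F] v)) hfg
  exact this

theorem exists_rep_aux {p : ℕ} [hp : Fact p.Prime] {V : Type u} [CommGroup V] [Finite V]
    [Module (ZMod p) (Additive V)] [FiniteDimensional (ZMod p) (Additive V)] {H : Type*} [Group H]
    (φ : H →* MulAut V) :
    ∃ (M : Type u) (_ : AddCommGroup M) (_ : Module (AlgebraicClosure (ZMod p)) M)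
      (_ : FiniteDimensional (AlgebraicClosure (ZMod p)) M)
      (ρ : H →* Module.End (AlgebraicClosure (ZMod p)) M),
      (∀ x, ρ x = 1 ↔ φ x = 1) ∧
      (∀ x : H, (∀ v : V, φ x v = v → v = 1) → ∀ r, φ x ^ r = 1 → ∑ i ∈ Finset.range r, ρ x ^ i = 0) ∧
      (∀ (x : H) (r : ℕ), (ρ x - 1) ^ r = 0 ↔ (H12.PStab.toEnd p V (φ x) - 1) ^ r = 0) := by
  let β := Module.End.baseChangeHom (ZMod p) (AlgebraicClosure (ZMod p)) (Additive V)
  let τ : H →* Module.End (ZMod p) (Additive V) := (H12.PStab.toEnd p V).comp φ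
  refine ⟨AlgebraicClosure (ZMod p) ⊗[ZMod p] Additive V, inferInstance, inferInstance, inferInstance,
    (β : Module.End (ZMod p) (Additive V) →* Module.End (AlgebraicClosure (ZMod p))
      (AlgebraicClosure (ZMod p) ⊗[ZMod p] Additive V)).comp τ, ?_, ?_, ?_⟩
  · intro x
    constructor
    · intro h
      apply H12.PStab.toEnd_injective p V
      apply baseChange_inj (k := AlgebraicClosure (ZMod p))
      rw [map_one, map_one]
      exact h
    · intro h
      show β (H12.PStab.toEnd p V (φ x)) = 1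
      rw [h, map_one, map_one]
  · intro x hfix r hr
    have htr : ∑ i ∈ Finset.range r, τ x ^ i = 0 := by
      have hfix' : ∀ v : Additive V, τ x v = v → v = 0 := by
        intro v hv
        have h1 : φ x (Additive.toMul v) = Additive.toMul v := hv
        exact Additive.toMul.injective (hfix _ h1)
      refine LinearMap.ext fun v => ?_
      apply hfix'
      rw [← Module.End.mul_apply]
      congr 1
      rw [Finset.mul_sum]
      have h1 : ∀ i ∈ Finset.range r, τ x * τ x ^ i = τ x ^ (i + 1) := fun i _ => (pow_succ' _ _).symm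
      rw [Finset.sum_congr rfl h1]
      have h2 := Finset.sum_range_succ' (fun i => τ x ^ i) r
      have h3 := Finset.sum_range_succ (fun i => τ x ^ i) r
      rw [h3] at h2
      have h4 : τ x ^ r = 1 := by
        rw [← map_pow]
        show H12.PStab.toEnd p V (φ (x ^ r)) = 1
        rw [map_pow φ, hr, map_one]
      rw [h4, pow_zero] at h2
      exact (add_right_cancel h2).symm
    show ∑ i ∈ Finset.range r, β (τ x) ^ i = 0
    rw [← map_zero β, ← htr, map_sum]
    exact Finset.sum_congr rfl (fun i _ => (map_pow β _ _).symm)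
  · intro x r
    have h1 : (β (τ x) - 1) ^ r = β ((τ x - 1) ^ r) := by rw [map_pow, map_sub, map_one]
    show (β (τ x) - 1) ^ r = 0 ↔ (τ x - 1) ^ r = 0
    rw [h1]
    constructor
    · intro h
      apply baseChange_inj (k := AlgebraicClosure (ZMod p))
      rw [map_zero]
      exact h
    · intro h
      rw [h, map_zero]

theorem exists_rep {G : Type u} [Group G] [Finite G] {p : ℕ} [hp : Fact p.Prime] {V : Subgroup G}
    (hV : Cfsg.IsElementaryAbelian p V) :
    ∃ (M : Type u) (_ : AddCommGroup M) (_ : Module (AlgebraicClosure (ZMod p)) M)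
      (_ : FiniteDimensional (AlgebraicClosure (ZMod p)) M)
      (ρ : normalizer (V : Set G) →* Module.End (AlgebraicClosure (ZMod p)) M),
      (∀ x, ρ x = 1 ↔ (x : G) ∈ centralizer (V : Set G)) ∧
      (∀ x : normalizer (V : Set G), V ⊓ centralizer {(x : G)} = ⊥ → ∀ r,
        (x : G) ^ r ∈ centralizer (V : Set G) → ∑ i ∈ Finset.range r, ρ x ^ i = 0) := by
  have hVab := hV.1
  letI i0 : CommGroup V := { (inferInstance : Group V) with
    mul_comm := fun a b => mul_comm' a b }
  letI i1 := AddCommGroup.zmodModule (n := p) (G := Additive V) (fun v => by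
    have := hV.2 (Additive.toMul v : V) (Additive.toMul v : V).2
    apply Additive.toMul.injective
    exact Subtype.ext this)
  haveI : Finite (Additive V) := inferInstanceAs (Finite V)
  haveI i2 : FiniteDimensional (ZMod p) (Additive V) := Module.Finite.of_finite
  let φ : normalizer (V : Set G) →* MulAut V := V.normalizerMonoidHom
  have hφ : ∀ (x : normalizer (V : Set G)) (v : V), ((φ x v : V) : G) = x * v * (x : G)⁻¹ := fun x v => rfl
  have hker : ∀ x, φ x = 1 ↔ (x : G) ∈ centralizer (V : Set G) := by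
    intro x
    constructor
    · intro h
      rw [mem_centralizer_iff]
      intro v hv
      have h1 := congrArg (fun f : MulAut V => ((f ⟨v, hv⟩ : V) : G)) h
      have h2 : (x : G) * v * (x : G)⁻¹ = v := h1
      calc v * x = (x * v * (x : G)⁻¹) * x := by rw [h2]
        _ = x * v := by group
    · intro h
      ext v
      rw [hφ, (mem_centralizer_iff.mp h v v.2).symm]
      show (v : G) * x * (x : G)⁻¹ = v
      group
  obtain ⟨M, j1, j2, j3, ρ, h1, h2, -⟩ := @exists_rep_aux p hp V i0 _ i1 i2 _ _ φ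
  refine ⟨M, j1, j2, j3, ρ, fun x => (h1 x).trans (hker x), ?_⟩
  intro x hfix r hr
  refine h2 x ?_ r ?_
  · intro v hv
    have h2 : (x : G) * (v : G) * (x : G)⁻¹ = (v : G) := congrArg Subtype.val hv
    have h3 : (v : G) ∈ V ⊓ centralizer {(x : G)} := by
      refine mem_inf.mpr ⟨v.2, ?_⟩
      rw [mem_centralizer_singleton_iff]
      calc (v : G) * x = ((x : G) * (v : G) * (x : G)⁻¹) * x := by rw [h2]
        _ = x * (v : G) := by group
    rw [hfix] at h3
    exact Subtype.ext (mem_bot.mp h3)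
  · rw [← map_pow, hker, SubmonoidClass.coe_pow]; exact hr

theorem natCast_ne_zero {p q : ℕ} [hp : Fact p.Prime] (hq : q.Prime) (hpq : p ≠ q) :
    (q : AlgebraicClosure (ZMod p)) ≠ 0 := by
  intro h
  have : (q : ZMod p) ≠ 0 := by
    rw [Ne, ZMod.natCast_eq_zero_iff]
    intro hd
    exact hpq ((Nat.prime_dvd_prime_iff_eq hp.out hq).mp hd)
  apply this
  have h2 : algebraMap (ZMod p) (AlgebraicClosure (ZMod p)) (q : ZMod p) = 0 := by rw [map_natCast]; exact h
  exact (map_eq_zero (algebraMap (ZMod p) (AlgebraicClosure (ZMod p)))).mp h2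

theorem centralizer_singleton_eq {G : Type*} [Group G] {x : G} {X : Subgroup G} (h : zpowers x = X) :
    centralizer ({x} : Set G) = centralizer (X : Set G) := by
  rw [← h]
  ext y
  rw [mem_centralizer_singleton_iff, mem_centralizer_iff]
  constructor
  · intro h g hg
    obtain ⟨i, rfl⟩ := mem_zpowers_iff.mp hg
    exact ((show Commute y x from h).zpow_right i).symm
  · intro h
    exact (h x (mem_zpowers x)).symm

theorem exists_zpowers {G : Type*} [Group G] {X : Subgroup G} {r : ℕ} (hr : r.Prime) (hX : Nat.card X = r) :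
    ∃ x : G, zpowers x = X := by
  haveI : IsCyclic X := isCyclic_of_prime_card (p := r) (hp := ⟨hr⟩) hX
  obtain ⟨g, hg⟩ := IsCyclic.exists_generator (α := X)
  refine ⟨g, le_antisymm ?_ ?_⟩
  · rw [zpowers_le]; exact g.2
  · intro x hx
    obtain ⟨n, hn⟩ := mem_zpowers_iff.mp (hg ⟨x, hx⟩)
    exact mem_zpowers_iff.mpr ⟨n, by rw [← SubgroupClass.coe_zpow, hn]⟩

/-- the automorphism of `Q` induced by a normalizing element -/
def au {G : Type*} [Group G] {Q : Subgroup G} {x : G} (hx : x ∈ normalizer (Q : Set G)) : MulAut Q :=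
  Q.normalizerMonoidHom ⟨x, hx⟩

theorem au_apply {G : Type*} [Group G] {Q : Subgroup G} {x : G} (hx : x ∈ normalizer (Q : Set G)) (g : Q) :
    ((au hx g : Q) : G) = x * g * x⁻¹ := rfl

theorem au_pow {G : Type*} [Group G] {Q : Subgroup G} {x : G} (hx : x ∈ normalizer (Q : Set G)) (i : ℕ) :
    (au hx) ^ i = au (pow_mem hx i) := by
  rw [au, ← map_pow]; rfl

theorem au_pow_apply {G : Type*} [Group G] {Q : Subgroup G} {x : G} (hx : x ∈ normalizer (Q : Set G)) (i : ℕ)
    (g : Q) : (((au hx ^ i) g : Q) : G) = x ^ i * g * (x ^ i)⁻¹ := by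
  rw [au_pow]; rfl

theorem au_one {G : Type*} [Group G] {Q : Subgroup G} {x : G} (hx : x ∈ normalizer (Q : Set G)) {i : ℕ}
    (h : x ^ i = 1) : (au hx) ^ i = 1 := by
  ext g
  rw [au_pow_apply, h]
  simp

/-- fixed points in quotients under a coprime action -/
theorem fp_of {G : Type*} [Group G] [Finite G] {Q : Subgroup G} {x : G} (hx : x ∈ normalizer (Q : Set G))
    (hcop : (orderOf x).Coprime (Nat.card Q)) (N : Subgroup Q) (hN : N.Normal)
    (hCN : ∀ g : Q, x * (g : G) = (g : G) * x → g ∈ N) (hNx : ∀ g ∈ N, au hx g ∈ N) (g : Q)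
    (hg : g⁻¹ * au hx g ∈ N) : g ∈ N := by
  haveI : Fintype Q := Fintype.ofFinite _
  have hQN : Q ≤ normalizer ((N.map Q.subtype : Subgroup G) : Set G) := by
    intro y hy
    rw [Subgroup.mem_normalizer_iff]
    have key : ∀ y ∈ Q, ∀ z ∈ N.map Q.subtype, y * z * y⁻¹ ∈ N.map Q.subtype := by
      rintro y hy _ ⟨z, hz, rfl⟩
      exact ⟨⟨y, hy⟩ * z * ⟨y, hy⟩⁻¹, hN.conj_mem z hz ⟨y, hy⟩, rfl⟩
    intro z
    refine ⟨key y hy z, fun h => ?_⟩
    have := key y⁻¹ (inv_mem hy) _ h
    have e : y⁻¹ * (y * z * y⁻¹) * y⁻¹⁻¹ = z := by group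
    rwa [e] at this
  have hpowN : ∀ (i : ℕ) (z : G), z ∈ N.map Q.subtype → x ^ i * z * (x ^ i)⁻¹ ∈ N.map Q.subtype := by
    rintro i _ ⟨z, hz, rfl⟩
    exact ⟨(au hx ^ i) z, HH3.inv_pow (au hx) hNx i z hz, au_pow_apply hx i z⟩
  have hxN : zpowers x ≤ normalizer ((N.map Q.subtype : Subgroup G) : Set G) := by
    intro y hy
    rw [Subgroup.mem_normalizer_iff]
    obtain ⟨i, rfl⟩ := (mem_powers_iff_mem_zpowers (x := x)).mpr hy
    obtain ⟨j, hj⟩ := (mem_powers_iff_mem_zpowers (x := x)).mpr (inv_mem hy)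
    intro z
    refine ⟨hpowN i z, fun h => ?_⟩
    have h2 := hpowN j _ h
    have hj' : x ^ j = (x ^ i)⁻¹ := hj
    rw [hj'] at h2
    have e : (x ^ i)⁻¹ * (x ^ i * z * (x ^ i)⁻¹) * ((x ^ i)⁻¹)⁻¹ = z := by group
    rwa [e] at h2
  obtain ⟨c, hc, hkc⟩ := H1.Coprime.fixed_points_quotient (zpowers x) Q (zpowers_le.mpr hx)
    (by rw [Nat.card_zpowers]; exact hcop) (Or.inl inferInstance) (N.map Q.subtype)
    (map_subtype_le _) hQN hxN (g : G) g.2 (by
      intro a ha
      obtain ⟨i, rfl⟩ := (mem_powers_iff_mem_zpowers (x := x)).mpr ha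
      have h1 := mod_pow (au hx) hNx g hg i
      have h2 := hN.conj_mem _ h1 g
      refine ⟨_, h2, ?_⟩
      show (g : G) * ((g : G)⁻¹ * (((au hx ^ i) g : Q) : G)) * (g : G)⁻¹ = _
      rw [au_pow_apply]
      show _ = x ^ i * g * (x ^ i)⁻¹ * (g : G)⁻¹
      group)
  have hcQ : c ∈ Q := (mem_inf.mp hc).1
  have hc1 : (⟨c, hcQ⟩ : Q) ∈ N := by
    apply hCN
    exact (mem_centralizer_iff.mp (mem_inf.mp hc).2) x (mem_zpowers x)
  obtain ⟨n, hn, hne⟩ := hkc
  have h3 : g = ⟨c, hcQ⟩ * n⁻¹ := by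
    apply Subtype.ext
    have : (n : G) = (g : G)⁻¹ * c := hne
    show (g : G) = c * (n : G)⁻¹
    rw [this]; group
  rw [h3]
  exact N.mul_mem hc1 (N.inv_mem hn)

open scoped commutatorElement in
theorem gen_of {G : Type*} [Group G] [Finite G] {Q : Subgroup G} {x : G} (hx : x ∈ normalizer (Q : Set G))
    (h : ⁅Q, zpowers x⁆ = Q) (N : Subgroup Q) (hN : N.Normal) (hNx : ∀ g, g⁻¹ * au hx g ∈ N) : N = ⊤ := by
  haveI : Fintype Q := Fintype.ofFinite _
  have hinv : ∀ g ∈ N, au hx g ∈ N := by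
    intro g hg
    have := N.mul_mem hg (hNx g)
    rwa [mul_inv_cancel_left] at this
  have h1 : ⁅Q, zpowers x⁆ ≤ N.map Q.subtype := by
    rw [commutator_le]
    intro g hg y hy
    obtain ⟨i, rfl⟩ := (mem_powers_iff_mem_zpowers (x := x)).mpr hy
    have h2 := mod_pow (au hx) hinv (⟨g, hg⟩⁻¹ : Q) (hNx _) i
    refine ⟨_, h2, ?_⟩
    show ((g⁻¹)⁻¹ : G) * (((au hx ^ i) (⟨g, hg⟩⁻¹ : Q) : Q) : G) = ⁅g, x ^ i⁆
    rw [au_pow_apply, commutatorElement_def]
    show (g⁻¹)⁻¹ * (x ^ i * g⁻¹ * (x ^ i)⁻¹) = g * x ^ i * g⁻¹ * (x ^ i)⁻¹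
    group
  rw [eq_top_iff]
  intro g _
  have h2 : (g : G) ∈ N.map Q.subtype := h1 (h.symm ▸ g.2)
  obtain ⟨g', hg', he⟩ := h2
  have : g' = g := Subtype.ext he
  rwa [← this]

open scoped commutatorElement in
/-- a minimal `B`-invariant subgroup not centralized by `A` -/
theorem exists_min {G : Type*} [Group G] [Finite G] (A B : Subgroup G) : ∀ (n : ℕ) (P : Subgroup G),
    Nat.card P ≤ n → B ≤ normalizer (P : Set G) → ⁅P, A⁆ ≠ ⊥ →
    ∃ P₁ ≤ P, B ≤ normalizer (P₁ : Set G) ∧ ⁅P₁, A⁆ ≠ ⊥ ∧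
      ∀ U : Subgroup G, U < P₁ → B ≤ normalizer (U : Set G) → ⁅U, A⁆ = ⊥ := by
  intro n
  induction n with
  | zero =>
    intro P h
    have : 0 < Nat.card P := Nat.card_pos
    omega
  | succ n ih =>
    intro P hP hB hA
    by_cases hmin : ∀ U : Subgroup G, U < P → B ≤ normalizer (U : Set G) → ⁅U, A⁆ = ⊥
    · exact ⟨P, le_rfl, hB, hA, hmin⟩
    · push Not at hmin
      obtain ⟨U, hU, hUB, hUA⟩ := hmin
      have h1 : Nat.card U < Nat.card P := by
        have h2 : Nat.card U ≤ Nat.card P := card_le_of_le hU.le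
        rcases h2.lt_or_eq with h | h
        · exact h
        · exact absurd (H22.Basic.eq_of_le_of_card_le hU.le h.ge) hU.ne
      obtain ⟨P₁, h2, h3, h4, h5⟩ := ih U (by omega) hUB hUA
      exact ⟨P₁, h2.trans hU.le, h3, h4, h5⟩

open scoped commutatorElement in
/-- the output of the reduction in the form needed for `BB` and `SS` -/
theorem min_data {G : Type u} [Group G] [Finite G] {q : ℕ} [Fact q.Prime] {B A P : Subgroup G}
    (hP : IsPGroup q P) (hBP : B ≤ normalizer (P : Set G)) (hAB : A ≤ B)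
    (hAn : B ≤ normalizer (A : Set G)) (hAq : (Nat.card A).Coprime q) (hnt : ⁅P, A⁆ ≠ ⊥)
    (hmin : ∀ U : Subgroup G, U < P → B ≤ normalizer (U : Set G) → ⁅U, A⁆ = ⊥) :
    ⁅P, A⁆ = P ∧ Cl2 P ∧ ∀ g : P, (g : G) ∈ centralizer (A : Set G) → g ∈ center P := by
  obtain ⟨h1, h2, h3, h4, h5, h6, h7⟩ := H22.Minimal.reduction hP hBP hAB hAn hAq hnt hmin
  have hcen : ∀ g : P, (g : G) ∈ ⁅P, P⁆ → g ∈ center P := by
    intro g hg
    rw [← h4] at hg
    have h8 := h5 hg
    rw [mem_center_iff]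
    intro t
    exact Subtype.ext ((mem_centralizer_iff.mp h8) t t.2)
  refine ⟨h1, ?_, ?_⟩
  · intro a b
    apply hcen
    show (a : G) * b * (a : G)⁻¹ * (b : G)⁻¹ ∈ _
    exact commutator_mem_commutator a.2 b.2
  · intro g hg
    apply hcen
    have hcop : (Nat.card A).Coprime (Nat.card P) := by
      obtain ⟨n, hn⟩ := IsPGroup.iff_card.mp hP
      rw [hn]; exact Nat.Coprime.pow_right n hAq
    exact H22.Minimal.centralizer_le_commutator (hAB.trans hBP) hcop h1 (mem_inf.mpr ⟨g.2, hg⟩)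

end Cfsg.Agent.H22.HH4
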