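import Cfsg.Agent.H22_HH4
import Cfsg.Agent.H22_PSolv
import Cfsg.Agent.H12_BG6

/-!
# Hall-Higman Theorem B for representations of `p`-solvable groups
-/

set_option autoImplicit false
set_option linter.unusedSectionVars false
set_option linter.style.haveILetI false

namespace Cfsg.Agent.H22.HH5

open Module Subgroup HH1 HH2 HH3 HH4
open scoped commutatorElement

universe u v w

/-- dual of Hall-Higman 1.2.3: `C(O_{p'}(G)) ≤ O_{p'}(G)` if `O_p(G) = 1` -/
theorem centralizer_pPrimeCore_le {p : ℕ} {G : Type u} [Group G] [Finite G] [hp : Fact p.Prime]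
    (hG : Cfsg.IsPSolvable p G) (h1 : Cfsg.pCore p G = ⊥) :
    centralizer (Cfsg.pPrimeCore p G : Set G) ≤ Cfsg.pPrimeCore p G := by
  classical
  rw [PSolv.isPSolvable_iff] at hG
  obtain ⟨n, M, h0, hn, hN, hm, hF⟩ := hG
  have hTn : (Cfsg.pPrimeCore p G).Normal := H1.Nilp.pPrimeCore_normal p
  have hTp : (Nat.card (Cfsg.pPrimeCore p G)).Coprime p := H1.Nilp.pPrimeCore_coprime p
  set T := Cfsg.pPrimeCore p G with hT
  set C := centralizer (T : Set G) with hC
  have hCn : C.Normal := inferInstance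
  have key : ∀ i, M i ⊓ C ≤ T := by
    intro i
    induction i with
    | zero => rw [h0, bot_inf_eq]; exact bot_le
    | succ i ih =>
      have := hN i
      have := hN (i + 1)
      have hBp : (Nat.card (M i ⊓ C : Subgroup G)).Coprime p :=
        Nat.Coprime.coprime_dvd_left (card_dvd_of_le ih) hTp
      have hle : M i ⊓ C ≤ M (i + 1) ⊓ C := inf_le_inf_right _ (hm i)
      have hdvd := PSolv.relIndex_inf_dvd (K := C) (hm i)
      rcases (hF i).dvd hp.out hdvd with ⟨k, hk⟩ | hcop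
      · have hcop' : (Nat.card (M i ⊓ C : Subgroup G)).Coprime ((M i ⊓ C).relIndex (M (i + 1) ⊓ C)) := by
          rw [hk]
          exact Nat.Coprime.pow_right k hBp
        obtain ⟨E, hE, hEc, hEi, hEs⟩ := H1.Coprime.sz_exists hle
          (by rw [normalizer_eq_top]; exact le_top) hcop'
        have hEn : M (i + 1) ⊓ C ≤ normalizer (E : Set G) := by
          rw [← hEs]
          apply sup_le le_normalizer
          refine le_trans ?_ (centralizer_le_normalizer _)
          rw [le_centralizer_iff]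
          have : E ≤ C := hE.trans inf_le_right
          exact this.trans (centralizer_le ih)
        have hEsub : E.IsSubnormal := by
          refine IsSubnormal.step E (M (i + 1) ⊓ C) hE ?_ ?_
          · exact (inferInstance : (M (i + 1) ⊓ C).Normal).isSubnormal
          · exact (normal_subgroupOf_iff_le_normalizer hE).mpr hEn
        have hEb : E ≤ Cfsg.pCore p G := H11.Cores.le_pCore_of_isSubnormal p hEsub
          (IsPGroup.of_card (by rw [hEc]; exact hk))
        rw [h1, le_bot_iff] at hEb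
        rw [hEb, bot_sup_eq] at hEs
        rw [← hEs]; exact ih
      · have h2 : (Nat.card (M (i + 1) ⊓ C : Subgroup G)).Coprime p := by
          rw [← H22.Basic.card_mul_relIndex hle]
          exact Nat.Coprime.mul_left hBp hcop
        exact H1.Nilp.le_pPrimeCore inferInstance h2
  have := key n
  rwa [hn, top_inf_eq] at this

/-- an element of prime power order acting nontrivially on a `p'`-group acts nontrivially on an
invariant Sylow subgroup -/
theorem exists_sylow_comm {G : Type u} [Group G] [Finite G] {p : ℕ} [hp : Fact p.Prime]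
    {K B A : Subgroup G} (hB : IsPGroup p B) (hBK : B ≤ normalizer (K : Set G)) 
    (hK : (Nat.card K).Coprime p) (hA : ⁅K, A⁆ ≠ ⊥) :
    ∃ (q : ℕ) (_ : Fact q.Prime) (P : Subgroup G), q ≠ p ∧ P ≤ K ∧ IsPGroup q P ∧
      B ≤ normalizer (P : Set G) ∧ ⁅P, A⁆ ≠ ⊥ := by
  classical
  by_contra hcon
  push Not at hcon
  apply hA
  rw [commutator_comm, Subgroup.commutator_eq_bot_iff_le_centralizer, le_centralizer_iff]
  have hcop : (Nat.card B).Coprime (Nat.card K) := by
    obtain ⟨n, hn⟩ := IsPGroup.iff_card.mp hB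
    rw [hn]
    exact (Nat.Coprime.pow_right n hK).symm
  have hBs : Group.IsSolvable B := by
    have := hB.isNilpotent
    infer_instance
  have h1 : Nat.card K ∣ Nat.card (K ⊓ centralizer (A : Set G) : Subgroup G) := by
    rw [Nat.dvd_iff_prime_pow_dvd_dvd]
    intro q k hq hqk
    rcases Nat.eq_zero_or_pos k with rfl | hk
    · simp
    haveI := Fact.mk hq
    have hqK : q ∣ Nat.card K := (dvd_pow_self q hk.ne').trans hqk
    have hqp : q ≠ p := by
      rintro rfl
      exact (Nat.Prime.coprime_iff_not_dvd hq).mp hK.symm hqK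
    obtain ⟨P, hP⟩ := H1.Coprime.invariant_sylow_exists B K hBK hcop (Or.inl hBs) q
    have h2 := hcon q inferInstance _ hqp (map_subtype_le (P : Subgroup K))
      (P.isPGroup'.map _) hP
    have h3 : (P : Subgroup K).map K.subtype ≤ K ⊓ centralizer (A : Set G) := by
      refine le_inf (map_subtype_le _) ?_
      rw [← Subgroup.commutator_eq_bot_iff_le_centralizer]
      exact h2
    have h4 : q ^ k ∣ Nat.card ((P : Subgroup K).map K.subtype) := by
      rw [card_map_of_injective K.subtype_injective, P.card_eq_multiplicity]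
      exact pow_dvd_pow q ((hq.pow_dvd_iff_le_factorization Nat.card_pos.ne').mp hqk)
    exact h4.trans (card_dvd_of_le h3)
  have h2 : K ⊓ centralizer (A : Set G) = K :=
    H22.Basic.eq_of_le_of_card_le inf_le_left (Nat.le_of_dvd Nat.card_pos h1)
  rw [← h2]; exact inf_le_right

/-- the conclusion of the critical case for a `q`-group `P` normalized by `x` -/
theorem qcase {G : Type u} [Group G] [Finite G] {p q : ℕ} [hp : Fact p.Prime] [hq : Fact q.Prime]
    (hqp : q ≠ p) {k : Type w} [Field k] [IsAlgClosed k] [CharP k p] {M : Type v} [AddCommGroup M]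
    [Module k M] [FiniteDimensional k M] (ρ : G →* Module.End k M) (hinj : Function.Injective ρ)
    (x : G) (n : ℕ) (hn1 : 1 ≤ n) (hn : orderOf x = p ^ n) {P : Subgroup G} (hP : IsPGroup q P)
    (hxP : x ∈ normalizer (P : Set G)) (hnt : ⁅P, zpowers (x ^ p ^ (n - 1))⁆ ≠ ⊥) :
    (ρ x - 1) ^ (p ^ n - 1) ≠ 0 ∨ ∃ n₀ m : ℕ, 1 ≤ n₀ ∧ n₀ ≤ n ∧ 1 ≤ m ∧ p ^ n₀ - 1 = q ^ m ∧
      (∃ a ∈ P, ∃ b ∈ P, a * b ≠ b * a) ∧ (ρ x - 1) ^ (p ^ (n - n₀) * (p ^ n₀ - 1) - 1) ≠ 0 := by
  classical
  have hxn : x ^ p ^ n = 1 := by rw [← hn]; exact pow_orderOf_eq_one x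
  set x₀ := x ^ p ^ (n - 1) with hx₀
  have hx₀o : orderOf x₀ = p := by
    rw [hx₀, orderOf_pow_of_dvd (pow_ne_zero _ hp.out.ne_zero) (by rw [hn]; exact pow_dvd_pow p (by omega)),
      hn, Nat.pow_div (by omega) hp.out.pos]
    have : n - (n - 1) = 1 := by omega
    rw [this, pow_one]
  have hAB : zpowers x₀ ≤ zpowers x := by
    rw [zpowers_le, hx₀]; exact pow_mem (mem_zpowers x) _
  obtain ⟨Q, hQP, hBQ, hntQ, hmin⟩ := exists_min (zpowers x₀) (zpowers x) _ P le_rfl
    (zpowers_le.mpr hxP) hnt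
  have hQq : IsPGroup q Q := hP.to_le hQP
  have hAn : zpowers x ≤ normalizer ((zpowers x₀ : Subgroup G) : Set G) := by
    refine le_trans ?_ (centralizer_le_normalizer _)
    rw [zpowers_le, ← centralizer_singleton_eq rfl, mem_centralizer_singleton_iff, hx₀]
    exact (Commute.refl x).pow_right _
  have hAq : (Nat.card (zpowers x₀)).Coprime q := by
    rw [Nat.card_zpowers, hx₀o]
    exact (Nat.coprime_primes hp.out hq.out).mpr (Ne.symm hqp)
  obtain ⟨h1, hcl, hC⟩ := min_data hQq hBQ hAB hAn hAq hntQ hmin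
  have hxQ : x ∈ normalizer (Q : Set G) := hBQ (mem_zpowers x)
  have hx₀Q : x₀ ∈ normalizer (Q : Set G) := pow_mem hxQ _
  have hau : (au hxQ) ^ p ^ (n - 1) = au hx₀Q := au_pow hxQ _
  haveI : Fintype Q := Fintype.ofFinite _
  have hcopQ : (orderOf x₀).Coprime (Nat.card Q) := by
    rw [hx₀o]
    obtain ⟨c, hc⟩ := IsPGroup.iff_card.mp hQq
    rw [hc]
    exact Nat.Coprime.pow_right c ((Nat.coprime_primes hp.out hq.out).mpr (Ne.symm hqp))
  obtain ⟨z, hz1⟩ : ∃ z : Q, z ≠ 1 := by
    by_contra hcon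
    push Not at hcon
    apply hntQ
    have : Q = ⊥ := by
      rw [eq_bot_iff]
      intro y hy
      exact mem_bot.mpr (congrArg Subtype.val (hcon ⟨y, hy⟩))
    rw [this]
    exact commutator_bot_left _
  have hBB := BB p q (Ne.symm hqp) hQq hcl (ρ.comp Q.subtype) (au hxQ) (ρ x) n hn1 (au_one hxQ hxn)
    (by rw [← map_pow, hxn, map_one])
    (fun g => by
      show ρ _ * ρ _ = ρ _ * ρ _
      rw [← map_mul, ← map_mul]
      congr 1
      show x * (g : G) = (x * g * x⁻¹) * x
      group)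
    (by
      intro N hN hcN hNinv g hg
      rw [hau] at hNinv hg
      refine fp_of hx₀Q hcopQ N hN ?_ hNinv g hg
      intro g hg
      apply hcN
      apply hC
      rw [← centralizer_singleton_eq rfl, mem_centralizer_singleton_iff]
      exact hg.symm)
    (by
      intro N hN hNg
      rw [hau] at hNg
      exact gen_of hx₀Q h1 N hN hNg)
    ⟨z, fun h => hz1 (Subtype.ext (hinj (by
      show ρ (z : G) = ρ (1 : G)
      rw [map_one]
      exact h)))⟩
  rcases hBB with h | ⟨n₀, m, h2, h3, h4, h5, ⟨a, b, hab⟩, h6⟩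
  · exact Or.inl h
  · refine Or.inr ⟨n₀, m, h2, h3, h4, h5, ⟨a, hQP a.2, b, hQP b.2, fun h => hab (Subtype.ext h)⟩, h6⟩

/-- **Hall-Higman Theorem B** for a faithful representation over an algebraically closed field -/
theorem TB {G : Type u} [Group G] [Finite G] {p : ℕ} [hp : Fact p.Prime] (hsol : Cfsg.IsPSolvable p G)
    (hOp : Cfsg.pCore p G = ⊥)
    {k : Type w} [Field k] [IsAlgClosed k] [CharP k p] {M : Type v} [AddCommGroup M]
    [Module k M] [FiniteDimensional k M] [Nontrivial M] (ρ : G →* Module.End k M)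
    (hinj : Function.Injective ρ) (x : G) (n : ℕ) (hn : orderOf x = p ^ n) :
    (ρ x - 1) ^ (p ^ n - 1) ≠ 0 ∨ ∃ n₀ q m : ℕ, 1 ≤ n₀ ∧ n₀ ≤ n ∧ q.Prime ∧ 1 ≤ m ∧
      p ^ n₀ - 1 = q ^ m ∧ (∀ Q : Sylow q G, ¬ IsMulCommutative (Q : Subgroup G)) ∧
      (ρ x - 1) ^ (p ^ (n - n₀) * (p ^ n₀ - 1) - 1) ≠ 0 := by
  classical
  rcases Nat.eq_zero_or_pos n with rfl | hn1
  · left
    simp
  have hxn : x ^ p ^ n = 1 := by rw [← hn]; exact pow_orderOf_eq_one x
  have hTn : (Cfsg.pPrimeCore p G).Normal := H1.Nilp.pPrimeCore_normal p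
  have hx₀ : x ^ p ^ (n - 1) ≠ 1 := by
    intro h
    have h1 := orderOf_dvd_of_pow_eq_one h
    rw [hn] at h1
    have h2 := (Nat.pow_dvd_pow_iff_le_right hp.out.one_lt).mp h1
    omega
  have hnt : ⁅Cfsg.pPrimeCore p G, zpowers (x ^ p ^ (n - 1))⁆ ≠ ⊥ := by
    intro h0
    rw [commutator_comm, Subgroup.commutator_eq_bot_iff_le_centralizer] at h0
    have h1 : x ^ p ^ (n - 1) ∈ Cfsg.pPrimeCore p G :=
      centralizer_pPrimeCore_le hsol hOp (h0 (mem_zpowers _))
    have h2 : orderOf (x ^ p ^ (n - 1)) ∣ Nat.card (Cfsg.pPrimeCore p G) :=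
      Subgroup.orderOf_dvd_natCard _ h1
    have h3 : orderOf (x ^ p ^ (n - 1)) ∣ p ^ n := by
      rw [← hn]; exact orderOf_pow_dvd _
    have h4 : orderOf (x ^ p ^ (n - 1)) ∣ 1 := by
      have h5 : (Nat.card (Cfsg.pPrimeCore p G)).Coprime (p ^ n) :=
        Nat.Coprime.pow_right n (H1.Nilp.pPrimeCore_coprime p)
      have h6 := Nat.dvd_gcd h2 h3
      rwa [h5] at h6
    exact hx₀ (orderOf_eq_one_iff.mp (Nat.dvd_one.mp h4))
  have hzp : IsPGroup p (zpowers x) := IsPGroup.of_card (by rw [Nat.card_zpowers, hn])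
  obtain ⟨q, hq, P, hqp, hPK, hPq, hBP, hntP⟩ := exists_sylow_comm hzp
    (by rw [normalizer_eq_top]; exact le_top)
    (H1.Nilp.pPrimeCore_coprime p) hnt
  rcases qcase hqp ρ hinj x n hn1 hn hPq (hBP (mem_zpowers x)) hntP with
    h | ⟨n₀, m, h2, h3, h4, h5, ⟨a, ha, b, hb, hab⟩, h6⟩
  · exact Or.inl h
  · refine Or.inr ⟨n₀, q, m, h2, h3, hq.out, h4, h5, ?_, h6⟩
    intro S hS
    obtain ⟨T, hT⟩ := hPq.exists_le_sylow
    obtain ⟨g, hg⟩ := MulAction.exists_smul_eq G T S
    apply hab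
    have h7 : ∀ y ∈ P, g * y * g⁻¹ ∈ (S : Subgroup G) := by
      intro y hy
      rw [← hg]
      exact ⟨y, hT hy, rfl⟩
    have h8 := mul_comm' (⟨_, h7 a ha⟩ : (S : Subgroup G)) ⟨_, h7 b hb⟩
    have h9 : (g * a * g⁻¹) * (g * b * g⁻¹) = (g * b * g⁻¹) * (g * a * g⁻¹) := congrArg Subtype.val h8
    have h10 : g * (a * b) * g⁻¹ = g * (b * a) * g⁻¹ := by
      calc g * (a * b) * g⁻¹ = (g * a * g⁻¹) * (g * b * g⁻¹) := by group
        _ = (g * b * g⁻¹) * (g * a * g⁻¹) := h9
        _ = g * (b * a) * g⁻¹ := by group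
    exact mul_left_cancel (mul_right_cancel h10)

end Cfsg.Agent.H22.HH5
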