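import Cfsg.Agent.H22_HH5

/-!
# From chief-type sections `T/Φ(T)` to representations, with control of commutators and norms
-/

set_option autoImplicit false
set_option linter.unusedSectionVars false
set_option linter.style.haveILetI false

namespace Cfsg.Agent.H22.HH6

open Module Subgroup HH1 HH2 HH3 HH4 HH5
open scoped TensorProduct commutatorElement

universe u v w

theorem exists_rep_aux {p : ℕ} [hp : Fact p.Prime] {V : Type u} [CommGroup V] [Finite V]
    [Module (ZMod p) (Additive V)] [FiniteDimensional (ZMod p) (Additive V)] {H : Type v} [Group H]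
    (φ : H →* MulAut V) :
    ∃ (M : Type u) (_ : AddCommGroup M) (_ : Module (AlgebraicClosure (ZMod p)) M)
      (_ : FiniteDimensional (AlgebraicClosure (ZMod p)) M)
      (ρ : H →* Module.End (AlgebraicClosure (ZMod p)) M),
      (∀ x, ρ x = 1 ↔ φ x = 1) ∧
      (∀ L : List H, (∀ v : V, L.foldr (fun x w => φ x w * w⁻¹) v = 1) →
        (L.map (fun x => ρ x - 1)).prod = 0) ∧
      (∀ (x : H) (r : ℕ), (∀ v : V, ∏ i ∈ Finset.range r, (φ x ^ i) v = 1) →
        ∑ i ∈ Finset.range r, ρ x ^ i = 0) ∧
      (Nontrivial V → Nontrivial M) := by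
  let β := Module.End.baseChangeHom (ZMod p) (AlgebraicClosure (ZMod p)) (Additive V)
  let τ : H →* Module.End (ZMod p) (Additive V) := (H12.PStab.toEnd p V).comp φ
  have hτ : ∀ x (v : V), τ x (Additive.ofMul v) = Additive.ofMul (φ x v) := fun x v => rfl
  refine ⟨AlgebraicClosure (ZMod p) ⊗[ZMod p] Additive V, inferInstance, inferInstance, inferInstance,
    (β : Module.End (ZMod p) (Additive V) →* Module.End (AlgebraicClosure (ZMod p))
      (AlgebraicClosure (ZMod p) ⊗[ZMod p] Additive V)).comp τ, ?_, ?_, ?_, ?_⟩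
  · intro x
    constructor
    · intro h
      apply H12.PStab.toEnd_injective p V
      apply baseChange_inj (k := AlgebraicClosure (ZMod p))
      rw [map_one, map_one]
      exact h
    · intro h
      show β (H12.PStab.toEnd p V (φ x)) = 1
      rw [h, map_one, map_one]
  · intro L hL
    have h1 : ∀ (L : List H) (v : V), (L.map (fun x => τ x - 1)).prod (Additive.ofMul v) =
        Additive.ofMul (L.foldr (fun x w => φ x w * w⁻¹) v) := by
      intro L
      induction L with
      | nil => intro v; rfl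
      | cons a L ih =>
        intro v
        rw [List.map_cons, List.prod_cons, Module.End.mul_apply, ih, LinearMap.sub_apply, hτ,
          Module.End.one_apply, List.foldr_cons, ← div_eq_mul_inv, ofMul_div]
    have h2 : (L.map (fun x => τ x - 1)).prod = 0 := by
      refine LinearMap.ext fun v => ?_
      have := h1 L (Additive.toMul v)
      rw [hL] at this
      exact this
    have h3 : (L.map (fun x => β (τ x) - 1)).prod = β ((L.map (fun x => τ x - 1)).prod) := by
      rw [map_list_prod, List.map_map]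
      congr 1
      apply List.map_congr_left
      intro x _
      simp
    show (L.map (fun x => β (τ x) - 1)).prod = 0
    rw [h3, h2, map_zero]
  · intro x r hr
    have h2 : ∑ i ∈ Finset.range r, τ x ^ i = 0 := by
      refine LinearMap.ext fun v => ?_
      have h3 := hr (Additive.toMul v)
      have h4 := congrArg Additive.ofMul h3
      rw [ofMul_prod] at h4
      rw [LinearMap.sum_apply]
      rw [LinearMap.zero_apply]
      rw [← ofMul_one, ← h4]
      refine Finset.sum_congr rfl (fun i _ => ?_)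
      rw [← map_pow, ← map_pow]
      rfl
    show ∑ i ∈ Finset.range r, β (τ x) ^ i = 0
    rw [← map_zero β, ← h2, map_sum]
    exact Finset.sum_congr rfl (fun i _ => (map_pow β _ _).symm)
  · intro hV
    obtain ⟨v, hv⟩ := exists_ne (1 : V)
    refine ⟨⟨(1 : AlgebraicClosure (ZMod p)) ⊗ₜ[ZMod p] (Additive.ofMul v), 0, fun h => hv ?_⟩⟩
    have h1 : Additive.ofMul v = 0 := by
      apply Module.FaithfullyFlat.tensorProduct_mk_injective (A := ZMod p) (B := AlgebraicClosure (ZMod p))
        (Additive V)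
      rw [map_zero]
      exact h
    exact h1

/-- representation of the normalizer of an elementary abelian subgroup -/
theorem exists_rep {G : Type u} [Group G] [Finite G] {p : ℕ} [hp : Fact p.Prime] {V : Subgroup G}
    (hV : Cfsg.IsElementaryAbelian p V) :
    ∃ (M : Type u) (_ : AddCommGroup M) (_ : Module (AlgebraicClosure (ZMod p)) M)
      (_ : FiniteDimensional (AlgebraicClosure (ZMod p)) M)
      (ρ : normalizer (V : Set G) →* Module.End (AlgebraicClosure (ZMod p)) M),
      (∀ x, ρ x = 1 ↔ (x : G) ∈ centralizer (V : Set G)) ∧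
      (∀ L : List (normalizer (V : Set G)), (∀ v ∈ V,
        L.foldr (fun (x : normalizer (V : Set G)) (w : G) => (x : G) * w * (x : G)⁻¹ * w⁻¹) v = 1) →
        (L.map (fun x => ρ x - 1)).prod = 0) ∧
      (∀ (x : normalizer (V : Set G)) (r : ℕ), (∀ v ∈ V, (v * (x : G)) ^ r = (x : G) ^ r) →
        ∑ i ∈ Finset.range r, ρ x ^ i = 0) ∧
      (V ≠ ⊥ → Nontrivial M) := by
  have hVab := hV.1
  letI i0 : CommGroup V := { (inferInstance : Group V) with
    mul_comm := fun a b => mul_comm' a b }
  letI i1 := AddCommGroup.zmodModule (n := p) (G := Additive V) (fun v => by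
    have := hV.2 (Additive.toMul v : V) (Additive.toMul v : V).2
    apply Additive.toMul.injective
    exact Subtype.ext this)
  haveI : Finite (Additive V) := inferInstanceAs (Finite V)
  haveI i2 : FiniteDimensional (ZMod p) (Additive V) := Module.Finite.of_finite
  let φ : normalizer (V : Set G) →* MulAut V := V.normalizerMonoidHom
  have hφ : ∀ (x : normalizer (V : Set G)) (v : V), ((φ x v : V) : G) = x * v * (x : G)⁻¹ := fun x v => rfl
  have hker : ∀ x, φ x = 1 ↔ (x : G) ∈ centralizer (V : Set G) := by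
    intro x
    constructor
    · intro h
      rw [mem_centralizer_iff]
      intro v hv
      have h1 := congrArg (fun f : MulAut V => ((f ⟨v, hv⟩ : V) : G)) h
      have h2 : (x : G) * v * (x : G)⁻¹ = v := h1
      calc v * x = (x * v * (x : G)⁻¹) * x := by rw [h2]
        _ = x * v := by group
    · intro h
      ext v
      rw [hφ, (mem_centralizer_iff.mp h v v.2).symm]
      show (v : G) * x * (x : G)⁻¹ = v
      group
  obtain ⟨M, j1, j2, j3, ρ, h1, h2, h3, h4⟩ := @exists_rep_aux p hp V i0 _ i1 i2 _ _ φ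
  refine ⟨M, j1, j2, j3, ρ, fun x => (h1 x).trans (hker x), ?_, ?_, ?_⟩
  · intro L hL
    apply h2 L
    intro v
    apply Subtype.ext
    have h5 : ∀ (L : List (normalizer (V : Set G))) (v : V),
        ((L.foldr (fun x w => φ x w * w⁻¹) v : V) : G) =
        L.foldr (fun (x : normalizer (V : Set G)) (w : G) => (x : G) * w * (x : G)⁻¹ * w⁻¹) (v : G) := by
      intro L
      induction L with
      | nil => intro v; rfl
      | cons a L ih =>
        intro v
        rw [List.foldr_cons, List.foldr_cons, ← ih]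
        rfl
    rw [h5, hL _ v.2]
    rfl
  · intro x r hr
    apply h3 x r
    intro v
    apply Subtype.ext
    have h5 : ∀ r : ℕ, ((∏ i ∈ Finset.range r, (φ x ^ i) v : V) : G) * (x : G) ^ r = ((v : G) * x) ^ r := by
      intro r
      induction r with
      | zero => simp
      | succ r ih =>
        rw [Finset.prod_range_succ, coe_mul, pow_succ ((v : G) * x), ← ih, ← map_pow φ, hφ,
          SubmonoidClass.coe_pow]
        group
    have h6 := h5 r
    rw [hr _ v.2] at h6
    exact mul_eq_right.mp h6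
  · intro hne
    exact h4 ((Subgroup.nontrivial_iff_ne_bot V).mpr hne)

/-- in a `p`-solvable group with `O_{p'} = 1`, an element centralizing `T/Φ(T)` (`T = O_p`) lies in `T` -/
theorem mem_pCore_of_frattini {p : ℕ} {G : Type u} [Group G] [Finite G] [hp : Fact p.Prime]
    (hG : Cfsg.IsPSolvable p G) (h1 : Cfsg.pPrimeCore p G = ⊥) (C : Subgroup G) [hCn : C.Normal]
    (hC : ∀ x ∈ C, ∀ t ∈ Cfsg.pCore p G,
      ⁅t, x⁆ ∈ (frattini (Cfsg.pCore p G)).map (Cfsg.pCore p G).subtype) : C ≤ Cfsg.pCore p G := by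
  classical
  have hTn : (Cfsg.pCore p G).Normal := H1.Nilp.pCore_normal p
  have hTp : IsPGroup p (Cfsg.pCore p G) := H1.Nilp.pCore_isPGroup p
  have hCT := PSolv.centralizer_pCore_le hG h1
  set T := Cfsg.pCore p G with hT
  apply H1.Nilp.le_pCore hCn
  -- every element of `C` of order prime to `p` is trivial
  have key : ∀ x ∈ C, (orderOf x).Coprime p → x = 1 := by
    intro x hx hcop
    have hcop' : (Nat.card (zpowers x)).Coprime (Nat.card T) := by
      rw [Nat.card_zpowers]
      obtain ⟨c, hc⟩ := IsPGroup.iff_card.mp hTp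
      rw [hc]
      exact Nat.Coprime.pow_right c hcop
    have h2 : zpowers x ≤ centralizer (T : Set G) := by
      have h7 := H1.Coprime.trivial_on_frattini_quotient (zpowers x) T
        (by rw [normalizer_eq_top]; exact le_top) (Nat.Coprime.coprime_dvd_right (card_subgroup_dvd_card _) hcop')
        (by
          intro a ha k hk
          have h8 : ⁅k⁻¹, a⁆ ∈ (frattini T).map T.subtype := hC a ((zpowers_le.mpr hx) ha) _ (inv_mem hk)
          have hΦn : ((frattini T).map T.subtype).Normal := inferInstance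
          have h9 := hΦn.conj_mem _ h8 k
          have e : k * ⁅k⁻¹, a⁆ * k⁻¹ = a * k * a⁻¹ * k⁻¹ := by rw [commutatorElement_def]; group
          rwa [e] at h9)
      exact h7
    have h3 : x ∈ T := hCT (h2 (mem_zpowers x))
    have h4 : orderOf x ∣ Nat.card T := Subgroup.orderOf_dvd_natCard _ h3
    have h5 : orderOf x ∣ 1 := by
      have h6 := Nat.dvd_gcd (dvd_refl (orderOf x)) h4
      rw [Nat.card_zpowers] at hcop'
      rwa [hcop'] at h6
    exact orderOf_eq_one_iff.mp (Nat.dvd_one.mp h5)
  intro ⟨x, hx⟩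
  obtain ⟨m, c, hc, hmc⟩ := Nat.exists_eq_pow_mul_and_not_dvd (orderOf_pos x).ne' p hp.out.ne_one
  refine ⟨m, Subtype.ext ?_⟩
  show x ^ p ^ m = 1
  apply key _ (C.pow_mem hx _)
  rw [orderOf_pow_of_dvd (pow_ne_zero _ hp.out.ne_zero) ⟨c, hmc⟩, hmc, Nat.mul_div_cancel_left _ (pow_pos hp.out.pos _)]
  exact ((Nat.Prime.coprime_iff_not_dvd hp.out).mpr hc).symm

/-- representation of `G / O_p(G)` on `O_p(G)/Φ(O_p(G))` extended to an algebraically closed field -/
theorem exists_rep_quot {p : ℕ} {G : Type u} [Group G] [Finite G] [hp : Fact p.Prime]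
    (hG : Cfsg.IsPSolvable p G) (h1 : Cfsg.pPrimeCore p G = ⊥) (T : Subgroup G) [hTn : T.Normal]
    (hT : T = Cfsg.pCore p G) (hT1 : T ≠ ⊥) :
    ∃ (M : Type u) (_ : AddCommGroup M) (_ : Module (AlgebraicClosure (ZMod p)) M)
      (_ : FiniteDimensional (AlgebraicClosure (ZMod p)) M)
      (ρ : G ⧸ T →* Module.End (AlgebraicClosure (ZMod p)) M),
      Function.Injective ρ ∧ Nontrivial M ∧
      (∀ L : List G, (∀ v ∈ T, L.foldr (fun (x w : G) => x * w * x⁻¹ * w⁻¹) v ∈
        (frattini T).map T.subtype) → (L.map (fun x : G => ρ (x : G ⧸ T) - 1)).prod = 0) ∧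
      (∀ (x : G) (r : ℕ), (∀ v ∈ T, (v * x) ^ r * (x ^ r)⁻¹ ∈ (frattini T).map T.subtype) →
        ∑ i ∈ Finset.range r, ρ (x : G ⧸ T) ^ i = 0) := by
  classical
  have hTp : IsPGroup p T := by rw [hT]; exact H1.Nilp.pCore_isPGroup p
  set Φ : Subgroup G := (frattini T).map T.subtype with hΦ
  have hΦn : Φ.Normal := inferInstance
  have hΦT : Φ ≤ T := map_subtype_le _
  set π := QuotientGroup.mk' Φ with hπ
  set V : Subgroup (G ⧸ Φ) := T.map π with hV
  have hfr := H1.Nilp.commutator_le_frattini hTp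
  have hVE : Cfsg.IsElementaryAbelian p V := by
    refine ⟨⟨⟨?_⟩⟩, ?_⟩
    · rintro ⟨_, a, ha, rfl⟩ ⟨_, b, hb, rfl⟩
      apply Subtype.ext
      show π a * π b = π b * π a
      rw [← map_mul, ← map_mul]
      apply QuotientGroup.eq.mpr
      have h2 : (⁅(⟨b, hb⟩ : T)⁻¹, (⟨a, ha⟩ : T)⁻¹⁆ : T) ∈ frattini T := by
        apply hfr.1
        rw [_root_.commutator_def]
        exact commutator_mem_commutator (mem_top _) (mem_top _)
      refine ⟨_, h2, ?_⟩
      show ⁅b⁻¹, a⁻¹⁆ = (a * b)⁻¹ * (b * a)
      rw [commutatorElement_def]; group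
    · rintro _ ⟨a, ha, rfl⟩
      rw [← map_pow, ← MonoidHom.mem_ker, hπ, QuotientGroup.ker_mk']
      exact ⟨_, hfr.2 ⟨a, ha⟩, rfl⟩
  have hVn : normalizer (V : Set (G ⧸ Φ)) = ⊤ := by
    have : V.Normal := hTn.map π (QuotientGroup.mk'_surjective Φ)
    rw [normalizer_eq_top]
  have hVne : V ≠ ⊥ := by
    intro h0
    have h2 : T ≤ Φ := by
      intro t ht
      have h3 : π t ∈ V := ⟨t, ht, rfl⟩
      rw [h0, mem_bot, ← MonoidHom.mem_ker, hπ, QuotientGroup.ker_mk'] at h3
      exact h3
    exact (H22.Coprime3.map_frattini_lt hT1).ne (le_antisymm hΦT h2)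
  obtain ⟨M, i1, i2, i3, ρ₀, hρ1, hρ2, hρ3, hρ4⟩ := exists_rep hVE
  let ν : G →* normalizer (V : Set (G ⧸ Φ)) :=
    { toFun := fun g => ⟨π g, by rw [hVn]; exact mem_top _⟩
      map_one' := Subtype.ext (map_one π)
      map_mul' := fun a b => Subtype.ext (map_mul π a b) }
  have hν : ∀ g, ((ν g : normalizer (V : Set (G ⧸ Φ))) : G ⧸ Φ) = π g := fun g => rfl
  have hkerC : (ρ₀.comp ν).ker ≤ T := by
    conv_rhs => rw [hT]
    apply mem_pCore_of_frattini hG h1
    intro x hx t ht
    rw [← hT] at ht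
    have h2 : π x ∈ centralizer (V : Set (G ⧸ Φ)) := (hρ1 (ν x)).mp hx
    have h3 := mem_centralizer_iff.mp h2 (π t) ⟨t, ht, rfl⟩
    have h4 : ⁅t, x⁆ ∈ Φ := by
      rw [← QuotientGroup.ker_mk' Φ, MonoidHom.mem_ker, ← hπ, map_commutatorElement,
        commutatorElement_eq_one_iff_mul_comm]
      exact h3
    convert h4 using 2
    all_goals first | rw [hΦ] | skip
    all_goals subst hT
    all_goals rfl
  have hTker : ∀ t ∈ T, (ρ₀.comp ν) t = 1 := by
    intro t ht
    apply (hρ1 (ν t)).mpr
    rw [mem_centralizer_iff]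
    intro y hy
    have := hVE.1
    exact congrArg Subtype.val (mul_comm' (⟨y, hy⟩ : V) ⟨π t, ⟨t, ht, rfl⟩⟩)
  let ρ : G ⧸ T →* Module.End (AlgebraicClosure (ZMod p)) M := QuotientGroup.lift T (ρ₀.comp ν) hTker
  have hρ : ∀ g : G, ρ (g : G ⧸ T) = ρ₀ (ν g) := fun g => rfl
  refine ⟨M, i1, i2, i3, ρ, ?_, hρ4 hVne, ?_, ?_⟩
  · refine (injective_iff_map_eq_one ρ).mpr ?_
    intro y hy
    obtain ⟨g, rfl⟩ := QuotientGroup.mk_surjective y
    exact (QuotientGroup.eq_one_iff g).mpr (hkerC hy)
  · intro L hL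
    have h2 : ∀ (L : List G) (v : G),
        (L.map ν).foldr (fun (x : normalizer (V : Set (G ⧸ Φ))) (w : G ⧸ Φ) =>
          (x : G ⧸ Φ) * w * (x : G ⧸ Φ)⁻¹ * w⁻¹) (π v) =
        π (L.foldr (fun (x w : G) => x * w * x⁻¹ * w⁻¹) v) := by
      intro L
      induction L with
      | nil => intro v; rfl
      | cons a L ih =>
        intro v
        rw [List.map_cons, List.foldr_cons, List.foldr_cons, ih, hν]
        simp only [map_mul, map_inv]
    have h3 := hρ2 (L.map ν) (by
      rintro _ ⟨v, hv, rfl⟩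
      rw [h2, ← MonoidHom.mem_ker, hπ, QuotientGroup.ker_mk']
      exact hL v hv)
    rw [List.map_map] at h3
    exact h3
  · intro x r hr
    have h3 := hρ3 (ν x) r (by
      rintro _ ⟨v, hv, rfl⟩
      rw [hν, ← map_mul, ← map_pow, ← map_pow]
      have h4 := hr v hv
      rw [← QuotientGroup.ker_mk' Φ, MonoidHom.mem_ker, ← hπ, map_mul, map_inv] at h4
      exact mul_inv_eq_one.mp h4)
    exact h3

end Cfsg.Agent.H22.HH6
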