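import Cfsg.Agent.H5_Dk1

/-!
Klein counting: few points with a large stabiliser.
-/

set_option autoImplicit false

namespace Cfsg.Agent.H22.KC

open MulAction Cfsg.Agent.H5.Dk
open scoped Classical

variable {G X : Type*} [Group G] [Fintype G] [MulAction G X] [Fintype X]

theorem few_points (h2 : ∀ g : G, g ≠ 1 → fx X g = 2) {S : Finset X} {w : ℕ}
    (hS : ∀ x ∈ S, w ≤ Nat.card (stabilizer G x)) (hw : 4 ≤ w) :
    S.card ≤ 12 ∧ (6 ≤ w → S.card ≤ 2) := by
  rcases S.eq_empty_or_nonempty with rfl | ⟨s, hs⟩
  · simp
  have hGs : Nat.card (stabilizer G s) ≤ Nat.card G := Nat.card_le_card_of_injective _ Subtype.val_injective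
  have hG : 4 ≤ Nat.card G := (hw.trans (hS s hs)).trans hGs
  have ha : ∀ t ∈ S, 0 < a G t := by
    intro t ht
    rw [a_pos_iff]
    exact le_trans (by omega) (hS t ht)
  have hwc : ∀ t ∈ S, ∀ x : X, t ∈ O G x → w * (O G x).card ≤ Nat.card G := by
    intro t ht x htx
    rw [← card_O (G := G) x, mul_comm, ← card_stab_eq htx]
    exact Nat.mul_le_mul_left _ (hS t ht)
  rcases dichotomy (by omega : 2 ≤ Nat.card G) h2 with ⟨x₀, hx₀⟩ | ⟨x, y, z, hT⟩
  · -- a fixed point
    have hcard : S.card ≤ 2 := by
      have hOx : (O G x₀).card = 1 := by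
        have := card_O (G := G) x₀
        rw [hx₀, Subgroup.card_top] at this
        have hpos : 0 < Nat.card G := Nat.card_pos
        exact Nat.eq_of_mul_eq_mul_right hpos (by rw [this, one_mul])
      by_cases hsub : S ⊆ O G x₀
      · have := Finset.card_le_card hsub
        omega
      · obtain ⟨y, hyS, hyx⟩ := Finset.not_subset.mp hsub
        have hy := ha y hyS
        have htot := sum_a_two (G := G) (X := X) h2
        have sx := sum_orbit (G := G) x₀
        have sy := sum_orbit (G := G) y
        have py := O_card_pos (G := G) y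
        have wy := hwc y hyS y (self_mem_O y)
        have wy' : 4 * (O G y).card ≤ Nat.card G := (Nat.mul_le_mul_right _ hw).trans wy
        have hcov : ∀ t : X, 0 < a G t → t ∈ O G x₀ ∪ O G y := by
          by_contra hcon
          push Not at hcon
          obtain ⟨t, ht, ht'⟩ := hcon
          rw [Finset.mem_union, not_or] at ht'
          have st := sum_orbit (G := G) t
          have tt := two_mul_le ht
          have hdis : Disjoint (O G x₀ ∪ O G y) (O G t) := by
            rw [Finset.disjoint_union_left]
            exact ⟨O_disjoint ht'.1, O_disjoint ht'.2⟩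
          have hle : ∑ s ∈ (O G x₀ ∪ O G y) ∪ O G t, a G s ≤ ∑ s : X, a G s :=
            Finset.sum_le_sum_of_subset (Finset.subset_univ _)
          rw [Finset.sum_union hdis, Finset.sum_union (O_disjoint hyx), htot] at hle
          omega
        rw [sum_le_of_cover hcov, Finset.sum_union (O_disjoint hyx)] at htot
        have hOy : (O G y).card = 1 := by omega
        have h3 : S ⊆ O G x₀ ∪ O G y := fun t ht => hcov t (ha t ht)
        calc S.card ≤ _ := Finset.card_le_card h3
          _ ≤ (O G x₀).card + (O G y).card := Finset.card_union_le _ _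
          _ = 2 := by rw [hOx, hOy]
    exact ⟨by omega, fun _ => hcard⟩
  · obtain ⟨x, y, z, hT, h3, h4⟩ := hT.sorted
    have cx := card_O (G := G) x
    have cy := card_O (G := G) y
    have cz := card_O (G := G) z
    have px := O_card_pos (G := G) x
    have py := O_card_pos (G := G) y
    have tx := two_mul_le hT.ax
    have ty := two_mul_le hT.ay
    have hsum := hT.sum
    have hcov : ∀ t ∈ S, t ∈ O G x ∨ t ∈ O G y ∨ t ∈ O G z := fun t ht => hT.cover t (ha t ht)
    -- if the first two orbits have stabilisers of order less than `w`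
    have key : (¬ 4 * (O G x).card ≤ Nat.card G) → (¬ 4 * (O G y).card ≤ Nat.card G) → S ⊆ O G z := by
      intro h5 h6 t ht
      rcases hcov t ht with h | h | h
      · exact absurd ((Nat.mul_le_mul_right _ hw).trans (hwc t ht x h)) h5
      · exact absurd ((Nat.mul_le_mul_right _ hw).trans (hwc t ht y h)) h6
      · exact h
    rcases arith cx cy cz (a_pos_iff.mp hT.ax) (a_pos_iff.mp hT.ay) (a_pos_iff.mp hT.az) h3 h4 (O_card_pos (G := G) z) hsum with h | h | h | h
    · have := Finset.card_le_card (key (by omega) (by omega))
      omega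
    · have h7 := key (by omega) (by omega)
      have := Finset.card_le_card h7
      refine ⟨by omega, fun h6 => ?_⟩
      exfalso
      have := hwc s hs z (h7 hs)
      have : 6 * (O G z).card ≤ Nat.card G := (Nat.mul_le_mul_right _ h6).trans this
      omega
    · have h7 := key (by omega) (by omega)
      have := Finset.card_le_card h7
      refine ⟨by omega, fun h6 => ?_⟩
      exfalso
      have := hwc s hs z (h7 hs)
      have : 6 * (O G z).card ≤ Nat.card G := (Nat.mul_le_mul_right _ h6).trans this
      omega
    · have h7 := key (by omega) (by omega)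
      have := Finset.card_le_card h7
      refine ⟨by omega, fun h6 => ?_⟩
      exfalso
      have := hwc s hs z (h7 hs)
      have : 6 * (O G z).card ≤ Nat.card G := (Nat.mul_le_mul_right _ h6).trans this
      omega

end Cfsg.Agent.H22.KC
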