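import Mathlib
import Cfsg.Agent.H22_KC1

/-!
Subgroups of order prime to `p` of `PGL₂(p)`: few points of the projective line with a large stabiliser.
-/

set_option autoImplicit false

namespace Cfsg.Agent.H22.KC

open MulAction Matrix OnePoint
open scoped Classical

section Fix

variable {K : Type*} [Field K]

theorem fix_coe {g : GL (Fin 2) K} {c : K} :
    g • (c : OnePoint K) = c ↔ g 1 0 * c ^ 2 + (g 1 1 - g 0 0) * c - g 0 1 = 0 := by
  rw [← Matrix.GeneralLinearGroup.fixpointPolynomial_aeval_eq_zero_iff]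
  simp [Matrix.GeneralLinearGroup.fixpointPolynomial]

theorem two_fix (h2 : (2 : K) ≠ 0) (g : GL (Fin 2) K) {r : K} (hr : r ≠ 0)
    (hD : (g 0 0 - g 1 1) ^ 2 + 4 * g 0 1 * g 1 0 = r * r) :
    ∃ u v : OnePoint K, u ≠ v ∧ ∀ x : OnePoint K, g • x = x ↔ x = u ∨ x = v := by
  by_cases hc : g 1 0 = 0
  · have hda : g 1 1 - g 0 0 ≠ 0 := by
      intro h0
      apply hr
      have h1 : g 0 0 - g 1 1 = 0 := by rw [← neg_sub, h0, neg_zero]
      rw [hc, h1] at hD
      simp at hD
      exact hD
    refine ⟨∞, ((g 0 1 / (g 1 1 - g 0 0) : K) : OnePoint K), OnePoint.infty_ne_coe _, ?_⟩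
    intro x
    cases x with
    | infty =>
      rw [OnePoint.smul_infty_eq_self_iff]
      simp [hc]
    | coe t =>
      rw [fix_coe, hc]
      constructor
      · intro h
        right
        rw [OnePoint.coe_eq_coe, eq_div_iff hda]
        linear_combination h
      · rintro (h | h)
        · exact absurd h (OnePoint.coe_ne_infty _)
        · rw [OnePoint.coe_eq_coe, eq_div_iff hda] at h
          linear_combination h
  · have h2c : 2 * g 1 0 ≠ 0 := mul_ne_zero h2 hc
    refine ⟨(((g 0 0 - g 1 1 + r) / (2 * g 1 0) : K) : OnePoint K), (((g 0 0 - g 1 1 - r) / (2 * g 1 0) : K) : OnePoint K), ?_, ?_⟩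
    · rw [Ne, OnePoint.coe_eq_coe, div_left_inj' h2c]
      intro h
      have h3 : 2 * r = 0 := by linear_combination h
      rcases mul_eq_zero.mp h3 with h4 | h4
      · exact h2 h4
      · exact hr h4
    · intro x
      cases x with
      | infty =>
        rw [OnePoint.smul_infty_eq_self_iff]
        constructor
        · intro h; exact absurd h hc
        · rintro (h | h)
          · exact absurd h (OnePoint.infty_ne_coe _)
          · exact absurd h (OnePoint.infty_ne_coe _)
      | coe t =>
        rw [fix_coe, OnePoint.coe_eq_coe, OnePoint.coe_eq_coe, eq_div_iff h2c, eq_div_iff h2c]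
        constructor
        · intro h
          have h3 : (t * (2 * g 1 0) - (g 0 0 - g 1 1 + r)) * (t * (2 * g 1 0) - (g 0 0 - g 1 1 - r)) = 0 := by
            linear_combination (4 * g 1 0) * h + hD
          rcases mul_eq_zero.mp h3 with h4 | h4
          · left; exact sub_eq_zero.mp h4
          · right; exact sub_eq_zero.mp h4
        · intro h
          have h3 : (t * (2 * g 1 0) - (g 0 0 - g 1 1 + r)) * (t * (2 * g 1 0) - (g 0 0 - g 1 1 - r)) = 0 := by
            rcases h with h | h
            · rw [h, sub_self, zero_mul]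
            · rw [h, sub_self, mul_zero]
          have h4 : (4 * g 1 0) * (g 1 0 * t ^ 2 + (g 1 1 - g 0 0) * t - g 0 1) = 0 := by
            linear_combination h3 - hD
          have h5 : (4 : K) * g 1 0 ≠ 0 := by
            have : (4 : K) = 2 * 2 := by norm_num
            rw [this]
            exact mul_ne_zero (mul_ne_zero h2 h2) hc
          exact (mul_eq_zero.mp h4).resolve_left h5

theorem smul_scalar {g : GL (Fin 2) K} {c : K} (hg : (g : Matrix (Fin 2) (Fin 2) K) = c • (1 : Matrix (Fin 2) (Fin 2) K)) (x : OnePoint K) :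
    g • x = x := by
  have h00 : g 0 0 = c := by
    show (g : Matrix (Fin 2) (Fin 2) K) 0 0 = c
    rw [hg]; simp
  have h11 : g 1 1 = c := by
    show (g : Matrix (Fin 2) (Fin 2) K) 1 1 = c
    rw [hg]; simp
  have h01 : g 0 1 = 0 := by
    show (g : Matrix (Fin 2) (Fin 2) K) 0 1 = 0
    rw [hg]; simp
  have h10 : g 1 0 = 0 := by
    show (g : Matrix (Fin 2) (Fin 2) K) 1 0 = 0
    rw [hg]; simp
  cases x with
  | infty => rw [OnePoint.smul_infty_eq_self_iff, h10]
  | coe t =>
    rw [fix_coe, h00, h11, h01, h10]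
    ring

/-- the zero discriminant case -/
theorem pow_char_smul {p : ℕ} [Fact p.Prime] [CharP K p] (h2 : (2 : K) ≠ 0) (g : GL (Fin 2) K)
    (hD : (g 0 0 - g 1 1) ^ 2 + 4 * g 0 1 * g 1 0 = 0) (x : OnePoint K) : g ^ p • x = x := by
  set s : K := (g 0 0 + g 1 1) / 2 with hs
  have hs2 : 2 * s = g 0 0 + g 1 1 := by rw [hs]; field_simp
  set M : Matrix (Fin 2) (Fin 2) K := (g : Matrix (Fin 2) (Fin 2) K) with hM
  have hsq : (M - s • 1) ^ 2 = 0 := by
    have h4 : (4 : K) ≠ 0 := by
      have : (4 : K) = 2 * 2 := by norm_num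
      rw [this]
      exact mul_ne_zero h2 h2
    ext i j
    fin_cases i <;> fin_cases j <;>
      simp [sq, Matrix.mul_apply, Fin.sum_univ_two]
    · apply mul_left_cancel₀ h4
      linear_combination hD + (-(4 * M 0 0 - 2 * s - (M 0 0 + M 1 1))) * hs2
    · apply mul_left_cancel₀ h4
      linear_combination (-4 * M 0 1) * hs2
    · apply mul_left_cancel₀ h4
      linear_combination (-4 * M 1 0) * hs2
    · apply mul_left_cancel₀ h4
      linear_combination hD + (-(4 * M 1 1 - 2 * s - (M 0 0 + M 1 1))) * hs2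
  have hp2 : 2 ≤ p := (Fact.out : p.Prime).two_le
  apply smul_scalar (c := s ^ p)
  rw [Units.val_pow_eq_pow_val]
  have h3 : M = (M - s • 1) + s • 1 := by rw [sub_add_cancel]
  have hcomm : Commute (M - s • 1) (s • (1 : Matrix (Fin 2) (Fin 2) K)) := (Commute.one_right _).smul_right s
  haveI : CharP (Matrix (Fin 2) (Fin 2) K) p := inferInstance
  have h5 : (M - s • 1) ^ p = 0 := by
    obtain ⟨m, rfl⟩ := Nat.exists_eq_add_of_le hp2
    rw [pow_add, hsq, zero_mul]
  calc M ^ p = ((M - s • 1) + s • 1) ^ p := by rw [← h3]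
    _ = (M - s • 1) ^ p + (s • (1 : Matrix (Fin 2) (Fin 2) K)) ^ p := add_pow_char_of_commute p hcomm
    _ = s ^ p • 1 := by rw [h5, zero_add, _root_.smul_pow, one_pow]

end Fix

/-- discriminants of matrices over the prime field are squares in the quadratic extension -/
theorem isSquare_algebraMap {p : ℕ} [Fact p.Prime] (hp : p ≠ 2) (D : ZMod p) :
    IsSquare (algebraMap (ZMod p) (GaloisField p 2) D) := by
  by_cases hD : D = 0
  · rw [hD, map_zero]; exact IsSquare.zero
  haveI : Fintype (GaloisField p 2) := Fintype.ofFinite _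
  have hcard : Fintype.card (GaloisField p 2) = p ^ 2 := by
    rw [← Nat.card_eq_fintype_card, GaloisField.card p 2 (by norm_num)]
  rw [FiniteField.isSquare_iff]
  · rw [hcard]
    have hodd : Odd p := (Fact.out : p.Prime).odd_of_ne_two hp
    obtain ⟨k, hk⟩ := hodd
    have h1 : p ^ 2 / 2 = (p - 1) * (k + 1) := by
      have h3 : p - 1 = 2 * k := by omega
      rw [h3, hk]
      have h4 : (2 * k + 1) ^ 2 = 2 * (2 * k * (k + 1)) + 1 := by ring
      rw [h4]
      omega
    rw [h1, ← map_pow, pow_mul, ZMod.pow_card_sub_one_eq_one hD, one_pow, map_one]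
  · rw [ringChar.eq (GaloisField p 2) p]
    exact hp
  · rw [Ne, map_eq_zero]
    exact hD

end Cfsg.Agent.H22.KC
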