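import Mathlib
import Cfsg.Agent.H22_KC2

/-!
Subgroups of order prime to `p` of `PGL₂(p)`: few points of the projective line with a large stabiliser (main statement).
-/

set_option autoImplicit false

namespace Cfsg.Agent.H22.KC

open MulAction Matrix OnePoint
open scoped Classical

theorem map_inj {F K : Type*} {f : F → K} (hf : Function.Injective f) : Function.Injective (OnePoint.map f) := by
  intro x y hxy
  cases x with
  | infty =>
    cases y with
    | infty => rfl
    | coe t => simp at hxy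
  | coe s =>
    cases y with
    | infty => simp at hxy
    | coe t =>
      simp at hxy
      rw [hf hxy]

theorem lines {p : ℕ} [Fact p.Prime] (hp : p ≠ 2) {N : Type*} [Group N] [Finite N] (ρ : N →* GL (Fin 2) (ZMod p))
    (Q : Subgroup N) (hQ : Q ≤ ρ.ker) (hQi : ¬ p ∣ Q.index) {w : ℕ} (hw : 4 ≤ w) (T : Finset (OnePoint (ZMod p)))
    (hT : ∀ x ∈ T, ∃ n : N, ρ n • x = x ∧ ∀ k, 0 < k → (∀ y : OnePoint (ZMod p), ρ n ^ k • y = y) → w ≤ k) :
    T.card ≤ 12 ∧ (6 ≤ w → T.card ≤ 2) := by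
  have hpp : p.Prime := Fact.out
  set K := GaloisField p 2 with hK
  set f : ZMod p →+* K := algebraMap (ZMod p) K with hf
  have hfinj : Function.Injective f := f.injective
  haveI : Fintype K := Fintype.ofFinite _
  have h2K : (2 : K) ≠ 0 := by
    intro h0
    have h1 : ((2 : ℕ) : K) = 0 := by exact_mod_cast h0
    rw [CharP.cast_eq_zero_iff K p] at h1
    exact hp ((Nat.prime_dvd_prime_iff_eq hpp Nat.prime_two).mp h1)
  let φ : N →* GL (Fin 2) K := (Matrix.GeneralLinearGroup.map f).comp ρ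
  let θ : N →* Equiv.Perm (OnePoint K) := (MulAction.toPermHom (GL (Fin 2) K) (OnePoint K)).comp φ
  have hθ : ∀ n x, θ n x = φ n • x := fun n x => rfl
  have hφ : ∀ n i j, (φ n) i j = f (ρ n i j) := fun n i j => rfl
  set Γ := θ.range with hΓ
  haveI : Fintype Γ := Fintype.ofFinite _
  have hcop : ¬ p ∣ Nat.card Γ := by
    rw [hΓ, ← Subgroup.index_ker]
    intro h
    apply hQi
    refine h.trans (Subgroup.index_dvd_of_le ?_)
    intro x hx
    have h1 : ρ x = 1 := hQ hx
    rw [MonoidHom.mem_ker]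
    show (MulAction.toPermHom (GL (Fin 2) K) (OnePoint K)) (Matrix.GeneralLinearGroup.map f (ρ x)) = 1
    rw [h1, map_one, map_one]
  have h2 : ∀ γ : Γ, γ ≠ 1 → H5.Dk.fx (OnePoint K) γ = 2 := by
    rintro ⟨γ, n, rfl⟩ hγ
    obtain ⟨r, hr⟩ := isSquare_algebraMap hp ((ρ n 0 0 - ρ n 1 1) ^ 2 + 4 * ρ n 0 1 * ρ n 1 0)
    have hD : (φ n 0 0 - φ n 1 1) ^ 2 + 4 * φ n 0 1 * φ n 1 0 = r * r := by
      rw [← hr, hφ, hφ, hφ, hφ]
      simp only [map_add, map_mul, map_sub, map_pow]
      rw [show (algebraMap (ZMod p) (GaloisField p 2)) 4 = 4 from map_ofNat _ 4]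
    by_cases hr0 : r = 0
    · exfalso
      rw [hr0, mul_zero] at hD
      apply hγ
      have h1 : (⟨θ n, n, rfl⟩ : Γ) ^ p = 1 := by
        apply Subtype.ext
        ext x
        have := pow_char_smul (p := p) h2K (φ n) hD x
        show ((θ n) ^ p) x = x
        rw [← map_pow, hθ, map_pow]
        exact this
      rw [← orderOf_dvd_iff_pow_eq_one] at h1
      rcases (Nat.dvd_prime hpp).mp h1 with h3 | h3
      · exact orderOf_eq_one_iff.mp h3
      · exact absurd (h3 ▸ orderOf_dvd_natCard _) hcop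
    · obtain ⟨u, v, huv, hx⟩ := two_fix h2K (φ n) hr0 hD
      rw [H5.Dk.fx]
      have : Finset.univ.filter (fun x : OnePoint K => (⟨θ n, n, rfl⟩ : Γ) • x = x) = {u, v} := by
        ext x
        rw [Finset.mem_filter, Finset.mem_insert, Finset.mem_singleton, ← hx x]
        exact ⟨fun h => h.2, fun h => ⟨Finset.mem_univ _, h⟩⟩
      rw [this, Finset.card_pair huv]
  have hinj := map_inj hfinj
  have hmain := few_points (G := Γ) (X := OnePoint K) h2 (S := T.image (OnePoint.map f)) (w := w) (by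
    intro x hx
    obtain ⟨y, hy, rfl⟩ := Finset.mem_image.mp hx
    obtain ⟨n, hn1, hn2⟩ := hT y hy
    have hmem : (⟨θ n, n, rfl⟩ : Γ) ∈ stabilizer Γ (OnePoint.map f y) := by
      rw [mem_stabilizer_iff]
      show φ n • OnePoint.map f y = OnePoint.map f y
      show (Matrix.GeneralLinearGroup.map f (ρ n)) • OnePoint.map f y = OnePoint.map f y
      rw [← OnePoint.map_smul, hn1]
    have h3 : orderOf (⟨⟨θ n, n, rfl⟩, hmem⟩ : stabilizer Γ (OnePoint.map f y)) ≤ Nat.card (stabilizer Γ (OnePoint.map f y)) :=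
      Nat.le_of_dvd Nat.card_pos (orderOf_dvd_natCard _)
    refine le_trans (hn2 _ (orderOf_pos _) ?_) h3
    intro z
    apply hinj
    rw [OnePoint.map_smul]
    have h4 := pow_orderOf_eq_one (⟨⟨θ n, n, rfl⟩, hmem⟩ : stabilizer Γ (OnePoint.map f y))
    set k := orderOf (⟨⟨θ n, n, rfl⟩, hmem⟩ : stabilizer Γ (OnePoint.map f y)) with hk
    have h5 : (θ n) ^ k = 1 := congrArg (fun t : stabilizer Γ (OnePoint.map f y) => ((t : Γ) : Equiv.Perm (OnePoint K))) h4
    have h6 : ((θ n) ^ k) (OnePoint.map f z) = OnePoint.map f z := by rw [h5]; rfl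
    rw [← map_pow, hθ, map_pow] at h6
    rw [map_pow]
    exact h6) hw
  rwa [Finset.card_image_of_injective _ hinj] at hmain

end Cfsg.Agent.H22.KC
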