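import Mathlib
import Cfsg.Prelude.Def_Transfer

/-!
Extraspecial Sylow subgroups of order `p³`: lifting torus elements to the normaliser.
-/

set_option autoImplicit false

namespace Cfsg.Agent.H22.KC

open Subgroup
open scoped commutatorElement

universe u

/-- working form of an extraspecial Sylow subgroup of order `p ^ 3` and exponent `p` -/
structure XS (p : ℕ) {G : Type u} [Group G] (P : Sylow p G) (Z : Subgroup G) : Prop where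
  le : Z ≤ P
  cardP : Nat.card P = p ^ 3
  cardZ : Nat.card Z = p
  cen : ∀ z ∈ Z, ∀ x ∈ P, x * z = z * x
  com : ∀ x ∈ P, ∀ y ∈ P, x * y * x⁻¹ * y⁻¹ ∈ Z
  max : ∀ x ∈ P, (∀ y ∈ P, y * x = x * y) → x ∈ Z
  exp : ∀ x ∈ P, x ^ p = 1

variable {p : ℕ} [hp : Fact p.Prime] {G : Type u} [Group G]

theorem XS.of {P : Sylow p G} (hE : Cfsg.IsExtraspecial p ↥P)
    (hcard : Nat.card P = p ^ 3) (hexp : Monoid.exponent ↥P = p) :
    XS p P ((center (P : Subgroup G)).map (P : Subgroup G).subtype) := by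
  obtain ⟨⟨_, _, h3⟩, h4⟩ := hE
  have hcen : ∀ z ∈ (center (P : Subgroup G)).map (P : Subgroup G).subtype, ∀ x ∈ P, x * z = z * x := by
    rintro z ⟨w, hw, rfl⟩ x hx
    exact congrArg Subtype.val (mem_center_iff.mp hw ⟨x, hx⟩)
  refine ⟨?_, hcard, ?_, hcen, ?_, ?_, ?_⟩
  · rintro z ⟨w, hw, rfl⟩
    exact w.2
  · rw [card_map_of_injective (subtype_injective _)]
    exact h4
  · intro x hx y hy
    have h5 : ⁅(⟨x, hx⟩ : (P : Subgroup G)), ⟨y, hy⟩⁆ ∈ commutator (P : Subgroup G) :=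
      commutator_mem_commutator (mem_top _) (mem_top _)
    have h6 : ⁅(⟨x, hx⟩ : (P : Subgroup G)), ⟨y, hy⟩⁆ ∈ center (P : Subgroup G) := h3 ▸ h5
    exact ⟨_, h6, rfl⟩
  · intro x hx h
    refine ⟨⟨x, hx⟩, ?_, rfl⟩
    rw [SetLike.mem_coe, mem_center_iff]
    intro y
    exact Subtype.ext (h y y.2)
  · intro x hx
    have h5 := Monoid.pow_exponent_eq_one (⟨x, hx⟩ : P)
    rw [hexp] at h5
    exact congrArg Subtype.val h5

variable {P : Sylow p G} {Z : Subgroup G}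

theorem XS.gen (h : XS p P Z) {z₀ : G} (hz : z₀ ∈ Z) (hz1 : z₀ ≠ 1) {z : G} (hzZ : z ∈ Z) : ∃ j : ℕ, z = z₀ ^ j := by
  have h1 : (⟨z, hzZ⟩ : Z) ∈ Submonoid.powers (⟨z₀, hz⟩ : Z) := by
    apply mem_powers_of_prime_card h.cardZ
    intro h2
    exact hz1 (congrArg Subtype.val h2)
  obtain ⟨j, hj⟩ := h1
  exact ⟨j, (congrArg Subtype.val hj).symm⟩

theorem XS.exists_gen (h : XS p P Z) : ∃ z₀ ∈ Z, z₀ ≠ 1 := by
  have h1 : Z ≠ ⊥ := by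
    intro h2
    have := h.cardZ
    rw [h2, card_bot] at this
    exact hp.out.one_lt.ne this
  obtain ⟨x, hx⟩ := (Subgroup.ne_bot_iff_exists_ne_one).mp h1
  exact ⟨x, x.2, fun h3 => hx (Subtype.ext h3)⟩

theorem XS.com_surj (h : XS p P Z) {a : G} (ha : a ∈ P) (haZ : a ∉ Z) {z : G} (hz : z ∈ Z) :
    ∃ x ∈ P, x * a * x⁻¹ = z * a := by
  obtain ⟨x₀, hx₀, hne⟩ : ∃ x₀ ∈ P, x₀ * a * x₀⁻¹ * a⁻¹ ≠ 1 := by
    by_contra hcon
    push Not at hcon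
    apply haZ
    apply h.max a ha
    intro y hy
    have := hcon y hy
    rw [mul_inv_eq_one, mul_inv_eq_iff_eq_mul] at this
    exact this
  set w := x₀ * a * x₀⁻¹ * a⁻¹ with hw
  have hwZ : w ∈ Z := h.com x₀ hx₀ a ha
  have hwa : x₀ * a * x₀⁻¹ = w * a := by rw [hw]; group
  obtain ⟨j, rfl⟩ := h.gen hwZ hne hz
  refine ⟨x₀ ^ j, P.pow_mem hx₀ j, ?_⟩
  clear hz
  induction j with
  | zero => simp
  | succ j ih =>
    have h5 : x₀ * w ^ j = w ^ j * x₀ := h.cen _ (Z.pow_mem hwZ j) x₀ hx₀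
    calc x₀ ^ (j + 1) * a * (x₀ ^ (j + 1))⁻¹ = x₀ * (x₀ ^ j * a * (x₀ ^ j)⁻¹) * x₀⁻¹ := by
          rw [pow_succ' x₀ j]; group
      _ = x₀ * (w ^ j * a) * x₀⁻¹ := by rw [ih]
      _ = w ^ j * (x₀ * a * x₀⁻¹) := by rw [← mul_assoc x₀, h5]; group
      _ = w ^ (j + 1) * a := by rw [hwa, pow_succ]; group

/-- conjugating a p-subgroup into a Sylow subgroup inside a subgroup -/
theorem sylow_in [Finite G] {P : Sylow p G} {M R : Subgroup G} (hPM : (P : Subgroup G) ≤ M) (hRM : R ≤ M)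
    (hR : IsPGroup p R) : ∃ m ∈ M, ∀ r ∈ R, m * r * m⁻¹ ∈ P := by
  obtain ⟨R', hR'⟩ := (hR.comap_of_injective M.subtype M.subtype_injective).exists_le_sylow
  obtain ⟨m, hm⟩ := MulAction.exists_smul_eq M R' (P.subtype hPM)
  refine ⟨m, m.2, ?_⟩
  intro r hr
  have h1 : (⟨r, hRM hr⟩ : M) ∈ R' := hR' (mem_subgroupOf.mpr hr)
  have h2 : m * (⟨r, hRM hr⟩ : M) * m⁻¹ ∈ (m • R' : Sylow p M) := by
    have : m * (⟨r, hRM hr⟩ : M) * m⁻¹ = (MulAut.conj m) • (⟨r, hRM hr⟩ : M) := rfl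
    rw [this]
    exact Subgroup.smul_mem_pointwise_smul _ _ _ h1
  rw [hm] at h2
  exact h2

/-- the torus element in terms of transvections -/
theorem XS.torus (h : XS p P Z) {z₀ a : G} (hz : z₀ ∈ Z) (ha : a ∈ P) (haZ : a ∉ Z)
    (hL : ∀ j : ℕ, ∃ g : G, g * a * g⁻¹ = a ∧ g * z₀ * g⁻¹ = z₀ * a ^ j) {s s' : ℕ} (hs : 1 ≤ s) (hs' : 1 ≤ s')
    (hss : ∀ x ∈ P, x ^ (s * s') = x) : ∃ g : G, g * z₀ * g⁻¹ = z₀ ^ s ∧ g * a * g⁻¹ = a ^ s' := by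
  have hcm : Commute z₀ a := (h.cen z₀ hz a ha).symm
  obtain ⟨t, rfl⟩ : ∃ t, s = t + 1 := ⟨s - 1, by omega⟩
  obtain ⟨t', rfl⟩ : ∃ t', s' = t' + 1 := ⟨s' - 1, by omega⟩
  obtain ⟨g₄, h4a, h4z⟩ := hL t
  obtain ⟨g₂, h2a, h2z⟩ := hL t'
  obtain ⟨g₃, h3P, h3a⟩ := h.com_surj ha haZ hz
  obtain ⟨g₁, h1P, h1a⟩ := h.com_surj ha haZ (Z.inv_mem (Z.pow_mem hz (t + 1)))
  have h3z : g₃ * z₀ * g₃⁻¹ = z₀ := by rw [h.cen z₀ hz g₃ h3P]; group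
  have h1z : g₁ * z₀ * g₁⁻¹ = z₀ := by rw [h.cen z₀ hz g₁ h1P]; group
  have e : ∀ g x : G, g * x * g⁻¹ = MulAut.conj g x := fun g x => rfl
  rw [e] at h4a h4z h2a h2z h3a h1a h3z h1z
  have ha1 : a ^ (t' * (t + 1) + t) = 1 := by
    have h5 := hss a ha
    have h6 : (t + 1) * (t' + 1) = (t' * (t + 1) + t) + 1 := by ring
    rw [h6, pow_succ] at h5
    exact mul_eq_right.mp h5
  refine ⟨g₁ * g₂ * g₃ * g₄, ?_, ?_⟩
  · rw [e, map_mul, map_mul, map_mul]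
    simp only [MulAut.mul_apply]
    have s3 : MulAut.conj g₃ (MulAut.conj g₄ z₀) = z₀ ^ (t + 1) * a ^ t := by
      rw [h4z, map_mul, map_pow, h3z, h3a, hcm.mul_pow, ← mul_assoc, ← pow_succ']
    have s2 : MulAut.conj g₂ (z₀ ^ (t + 1) * a ^ t) = z₀ ^ (t + 1) := by
      rw [map_mul, map_pow, map_pow, h2z, h2a, (hcm.pow_right t').mul_pow, ← pow_mul, mul_assoc, ← pow_add, ha1, mul_one]
    rw [s3, s2, map_pow, h1z]
  · rw [e, map_mul, map_mul, map_mul]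
    simp only [MulAut.mul_apply]
    have s2 : MulAut.conj g₂ (z₀ * a) = z₀ * a ^ (t' + 1) := by
      rw [map_mul, h2z, h2a, mul_assoc, ← pow_succ]
    have hcm2 : Commute (z₀ ^ (t + 1))⁻¹ a := (hcm.pow_left (t + 1)).inv_left
    rw [h4a, h3a, s2, map_mul, map_pow, h1z, h1a, hcm2.mul_pow, inv_pow, ← pow_mul, hss z₀ (h.le hz), mul_inv_cancel_left]

/-- lifting to the normaliser of the Sylow subgroup -/
theorem XS.lift [Finite G] (h : XS p P Z) {z₀ a : G} (hz : z₀ ∈ Z) (hz1 : z₀ ≠ 1) (ha : a ∈ P) (haZ : a ∉ Z) {s s' : ℕ}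
    (hss : ∀ x ∈ P, x ^ (s * s') = x) {g : G} (hgz : g * z₀ * g⁻¹ = z₀ ^ s) (hga : g * a * g⁻¹ = a ^ s') :
    ∃ n ∈ normalizer ((P : Subgroup G) : Set G), n * z₀ * n⁻¹ = z₀ ^ s ∧ n * a * n⁻¹ = a ^ s' := by
  have hfix : ∀ k : G, k * z₀ * k⁻¹ = z₀ → ∀ z ∈ Z, k * z * k⁻¹ = z := by
    intro k hk z hz'
    obtain ⟨j, rfl⟩ := h.gen hz hz1 hz'
    rw [← conj_pow, hk]
  let M : Subgroup G :=
    { carrier := {k | k * z₀ * k⁻¹ = z₀ ∧ ∃ z ∈ Z, k * a * k⁻¹ = z * a}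
      one_mem' := ⟨by simp, 1, Z.one_mem, by simp⟩
      mul_mem' := by
        rintro k l ⟨hk, zk, hzk, hk'⟩ ⟨hl, zl, hzl, hl'⟩
        refine ⟨?_, zl * zk, Z.mul_mem hzl hzk, ?_⟩
        · calc k * l * z₀ * (k * l)⁻¹ = k * (l * z₀ * l⁻¹) * k⁻¹ := by group
            _ = z₀ := by rw [hl, hk]
        · calc k * l * a * (k * l)⁻¹ = k * (l * a * l⁻¹) * k⁻¹ := by group
            _ = (k * zl * k⁻¹) * (k * a * k⁻¹) := by rw [hl']; group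
            _ = zl * zk * a := by rw [hfix k hk zl hzl, hk', mul_assoc]
      inv_mem' := by
        rintro k ⟨hk, zk, hzk, hk'⟩
        have h1 : k⁻¹ * z₀ * k⁻¹⁻¹ = z₀ := by
          calc k⁻¹ * z₀ * k⁻¹⁻¹ = k⁻¹ * (k * z₀ * k⁻¹) * k := by rw [hk, inv_inv]
            _ = z₀ := by group
        refine ⟨h1, zk⁻¹, Z.inv_mem hzk, ?_⟩
        have h2 : a = (k⁻¹ * zk * k⁻¹⁻¹) * (k⁻¹ * a * k⁻¹⁻¹) := by
          calc a = k⁻¹ * (k * a * k⁻¹) * k := by group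
            _ = (k⁻¹ * zk * k⁻¹⁻¹) * (k⁻¹ * a * k⁻¹⁻¹) := by rw [hk']; group
        rw [hfix _ h1 zk hzk] at h2
        rw [eq_inv_mul_iff_mul_eq]
        exact h2.symm }
  have hPM : (P : Subgroup G) ≤ M := by
    intro x hx
    refine ⟨by rw [h.cen z₀ hz x hx]; group, _, h.com x hx a ha, by group⟩
  have hgz' : g⁻¹ * z₀ * g = z₀ ^ s' := by
    have h1 : g * z₀ ^ s' * g⁻¹ = z₀ := by rw [← conj_pow, hgz, ← pow_mul, hss z₀ (h.le hz)]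
    calc g⁻¹ * z₀ * g = g⁻¹ * (g * z₀ ^ s' * g⁻¹) * g := by rw [h1]
      _ = z₀ ^ s' := by group
  have hga' : g⁻¹ * a * g = a ^ s := by
    have h1 : g * a ^ s * g⁻¹ = a := by rw [← conj_pow, hga, ← pow_mul, mul_comm s' s, hss a ha]
    calc g⁻¹ * a * g = g⁻¹ * (g * a ^ s * g⁻¹) * g := by rw [h1]
      _ = a ^ s := by group
  have hgZ : ∀ z ∈ Z, g * z * g⁻¹ ∈ Z := by
    intro z hz'
    obtain ⟨j, rfl⟩ := h.gen hz hz1 hz'
    rw [← conj_pow, hgz]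
    exact Z.pow_mem (Z.pow_mem hz _) _
  have hRM : (P : Subgroup G).map (MulAut.conj g).toMonoidHom ≤ M := by
    rintro _ ⟨x, hx, rfl⟩
    have e : (MulAut.conj g).toMonoidHom x = g * x * g⁻¹ := rfl
    rw [e]
    refine ⟨?_, g * (x * a ^ s * x⁻¹ * (a ^ s)⁻¹) * g⁻¹, hgZ _ (h.com x hx _ (P.pow_mem ha s)), ?_⟩
    · calc g * x * g⁻¹ * z₀ * (g * x * g⁻¹)⁻¹ = g * (x * (g⁻¹ * z₀ * g) * x⁻¹) * g⁻¹ := by group
        _ = g * (g⁻¹ * z₀ * g) * g⁻¹ := by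
          rw [hgz', h.cen _ (Z.pow_mem hz s') x hx]; group
        _ = z₀ := by group
    · calc g * x * g⁻¹ * a * (g * x * g⁻¹)⁻¹ = g * (x * (g⁻¹ * a * g) * x⁻¹) * g⁻¹ := by group
        _ = g * (x * a ^ s * x⁻¹) * g⁻¹ := by rw [hga']
        _ = g * (x * a ^ s * x⁻¹ * (a ^ s)⁻¹) * g⁻¹ * (g * a ^ s * g⁻¹) := by group
        _ = g * (x * a ^ s * x⁻¹ * (a ^ s)⁻¹) * g⁻¹ * a := by rw [← hga']; group
  obtain ⟨m, hmM, hm⟩ := sylow_in hPM hRM (P.2.map _)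
  obtain ⟨hm1, z, hzZ, hm2⟩ := hmM
  obtain ⟨x, hx, hxa⟩ := h.com_surj ha haZ hzZ
  refine ⟨x⁻¹ * m * g, ?_, ?_, ?_⟩
  · haveI : Finite ((P : Subgroup G) : Set G) := inferInstance
    apply mem_normalizer_fintype
    intro y hy
    have h1 := hm (g * y * g⁻¹) ⟨y, hy, rfl⟩
    have h2 := P.mul_mem (P.mul_mem (P.inv_mem hx) h1) hx
    have h3 : x⁻¹ * (m * (g * y * g⁻¹) * m⁻¹) * x = x⁻¹ * m * g * y * (x⁻¹ * m * g)⁻¹ := by group
    rw [h3] at h2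
    exact h2
  · have h4 : x⁻¹ * z₀ * x = z₀ := by rw [mul_assoc, ← h.cen z₀ hz x hx]; group
    calc x⁻¹ * m * g * z₀ * (x⁻¹ * m * g)⁻¹ = x⁻¹ * (m * (g * z₀ * g⁻¹) * m⁻¹) * x := by group
      _ = x⁻¹ * (m * z₀ * m⁻¹) ^ s * x := by rw [hgz, conj_pow]
      _ = (x⁻¹ * z₀ * x) ^ s := by
        rw [hm1]
        have := conj_pow (i := s) (a := x⁻¹) (b := z₀)
        rw [inv_inv] at this
        exact this.symm
      _ = z₀ ^ s := by rw [h4]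
  · have h4 : x⁻¹ * (z * a) * x = a := by rw [← hxa]; group
    calc x⁻¹ * m * g * a * (x⁻¹ * m * g)⁻¹ = x⁻¹ * (m * (g * a * g⁻¹) * m⁻¹) * x := by group
      _ = x⁻¹ * (m * a * m⁻¹) ^ s' * x := by rw [hga, conj_pow]
      _ = (x⁻¹ * (z * a) * x) ^ s' := by
        rw [hm2]
        have := conj_pow (i := s') (a := x⁻¹) (b := z * a)
        rw [inv_inv] at this
        exact this.symm
      _ = a ^ s' := by rw [h4]

end Cfsg.Agent.H22.KC
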