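import Mathlib
import Cfsg.Agent.H22_KC3
import Cfsg.Agent.H22_KC4
import Cfsg.Agent.H13_Chief

/-!
Extraspecial Sylow subgroups of order `p³`: the projective line of `P / Z(P)`.
-/

set_option autoImplicit false

namespace Cfsg.Agent.H22.KC

open Subgroup Matrix OnePoint

universe u

section Vec

variable {F : Type*} [Field F] [DecidableEq F]

/-- the vector of a point of the projective line -/
def vec (x : OnePoint F) : Fin 2 → F := x.elim ![1, 0] (fun t => ![t, 1])

omit [DecidableEq F] in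
theorem vec_ne (x : OnePoint F) : vec x ≠ 0 := by
  intro h
  cases x with
  | infty =>
    have := congrFun h 0
    simp [vec] at this
  | coe t =>
    have := congrFun h 1
    simp [vec] at this

theorem fix_iff {g : GL (Fin 2) F} {x : OnePoint F} :
    g • x = x ↔ ∃ c : F, (g : Matrix (Fin 2) (Fin 2) F) *ᵥ vec x = c • vec x := by
  cases x with
  | infty =>
    rw [OnePoint.smul_infty_eq_self_iff]
    constructor
    · intro h
      refine ⟨g 0 0, ?_⟩
      ext i
      fin_cases i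
      · simp [vec, Matrix.mulVec, dotProduct, Fin.sum_univ_two]
      · simp [vec, Matrix.mulVec, dotProduct, Fin.sum_univ_two, h]
    · rintro ⟨c, hc⟩
      have := congrFun hc 1
      simpa [vec, Matrix.mulVec, dotProduct, Fin.sum_univ_two] using this
  | coe t =>
    have h0 : g • (t : OnePoint F) = t ↔ g 1 0 * t ^ 2 + (g 1 1 - g 0 0) * t - g 0 1 = 0 := by
      rw [← Matrix.GeneralLinearGroup.fixpointPolynomial_aeval_eq_zero_iff]
      simp [Matrix.GeneralLinearGroup.fixpointPolynomial]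
    rw [h0]
    constructor
    · intro h
      refine ⟨g 1 0 * t + g 1 1, ?_⟩
      ext i
      fin_cases i
      · simp [vec, Matrix.mulVec, dotProduct, Fin.sum_univ_two]
        linear_combination -h
      · simp [vec, Matrix.mulVec, dotProduct, Fin.sum_univ_two]
    · rintro ⟨c, hc⟩
      have e0 := congrFun hc 0
      have e1 := congrFun hc 1
      simp [vec, Matrix.mulVec, dotProduct, Fin.sum_univ_two] at e0 e1
      linear_combination t * e1 - e0

omit [DecidableEq F] in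
theorem exists_vec {u : Fin 2 → F} (hu : u ≠ 0) : ∃ x : OnePoint F, ∃ d : F, d ≠ 0 ∧ u = d • vec x := by
  by_cases h1 : u 1 = 0
  · refine ⟨∞, u 0, ?_, ?_⟩
    · intro h0
      apply hu
      ext i
      fin_cases i
      · exact h0
      · exact h1
    · ext i
      fin_cases i
      · simp [vec]
      · simp [vec, h1]
  · refine ⟨((u 0 / u 1 : F) : OnePoint F), u 1, h1, ?_⟩
    ext i
    fin_cases i
    · simp [vec]
      field_simp
    · simp [vec]

/-- a matrix fixing all points is scalar -/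
theorem scalar_of_fix {g : GL (Fin 2) F} (h : ∀ y : OnePoint F, g • y = y) :
    ∃ c : F, ∀ u, (g : Matrix (Fin 2) (Fin 2) F) *ᵥ u = c • u := by
  obtain ⟨c0, h0⟩ := fix_iff.mp (h ∞)
  obtain ⟨c1, h1⟩ := fix_iff.mp (h ((0 : F) : OnePoint F))
  obtain ⟨c2, h2⟩ := fix_iff.mp (h ((1 : F) : OnePoint F))
  have a0 := congrFun h0 0
  have a1 := congrFun h0 1
  have b0 := congrFun h1 0
  have b1 := congrFun h1 1
  have d0 := congrFun h2 0
  have d1 := congrFun h2 1
  simp [vec, Matrix.mulVec, dotProduct, Fin.sum_univ_two] at a0 a1 b0 b1 d0 d1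
  refine ⟨c0, fun u => ?_⟩
  ext i
  fin_cases i
  · simp [Matrix.mulVec, dotProduct, Fin.sum_univ_two, a0, b0]
  · simp [Matrix.mulVec, dotProduct, Fin.sum_univ_two, a1, b1]
    left
    rw [a1, zero_add] at d1
    rw [b0, add_zero] at d0
    rw [← b1, d1, ← d0, a0]

end Vec

variable {p : ℕ} [hp : Fact p.Prime] {G : Type u} [Group G] {P : Sylow p G} {Z : Subgroup G}

theorem XS.main [Finite G] (hp2 : p ≠ 2) (h : XS p P Z) {z₀ : G} (hz : z₀ ∈ Z) (hz1 : z₀ ≠ 1) {w : ℕ} (hw : 4 ≤ w)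
    {s s' : ℕ} (hs' : orderOf (s' : ZMod p) = p - 1) (hss : (s : ZMod p) * (s' : ZMod p) = 1)
    (hpw : ∀ k, 0 < k → (p - 1) ∣ 3 * k → w ≤ k) :
    ∃ Rel : G → OnePoint (ZMod p) → Prop, (∀ a ∈ P, a ∉ Z → ∃ x, Rel a x) ∧ (∀ x, ∃ a ∈ P, a ∉ Z ∧ Rel a x) ∧
      (∀ a ∈ P, ∀ b ∈ P, ∀ x, Rel a x → Rel b x → ∃ c : ℕ, ∃ z ∈ Z, a = b ^ c * z) ∧
      (∀ T : Finset (OnePoint (ZMod p)), (∀ x ∈ T, ∃ a ∈ P, a ∉ Z ∧ Rel a x ∧
        ∃ n ∈ normalizer ((P : Subgroup G) : Set G), n * z₀ * n⁻¹ = z₀ ^ s ∧ n * a * n⁻¹ = a ^ s') →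
        T.card ≤ 12 ∧ (6 ≤ w → T.card ≤ 2)) := by
  have hpp := hp.out
  set N := normalizer ((P : Subgroup G) : Set G) with hN
  have hPN : (P : Subgroup G) ≤ N := le_normalizer
  have hZN : Z ≤ N := h.le.trans hPN
  set P' := (P : Subgroup G).subgroupOf N with hP'
  set Z' := Z.subgroupOf N with hZ'
  have hconjZ : ∀ n ∈ N, ∀ z ∈ Z, n * z * n⁻¹ ∈ Z := by
    intro n hn z hzZ
    have h1 : n * z * n⁻¹ ∈ (P : Subgroup G) := (mem_normalizer_iff.mp hn z).mp (h.le hzZ)
    apply h.max _ h1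
    intro y hy
    have h2 : n⁻¹ * y * n ∈ (P : Subgroup G) := by
      have := (mem_normalizer_iff.mp (N.inv_mem hn) y).mp hy
      rwa [inv_inv] at this
    have h3 := h.cen z hzZ _ h2
    calc y * (n * z * n⁻¹) = n * ((n⁻¹ * y * n) * z) * n⁻¹ := by group
      _ = n * (z * (n⁻¹ * y * n)) * n⁻¹ := by rw [h3]
      _ = n * z * n⁻¹ * y := by group
  have hsec : H13.Chief.IsElemSec p P' Z' := by
    refine ⟨?_, ?_, ?_, ?_, ?_⟩
    · intro x hx
      rw [mem_subgroupOf] at hx ⊢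
      exact h.le hx
    · exact normal_in_normalizer
    · refine ⟨fun z hzZ n => ?_⟩
      rw [mem_subgroupOf] at hzZ ⊢
      exact hconjZ n n.2 z hzZ
    · rw [commutator_le]
      intro x hx y hy
      rw [mem_subgroupOf] at hx hy ⊢
      exact h.com x hx y hy
    · intro x hx
      rw [mem_subgroupOf] at hx ⊢
      have h1 : ((x ^ p : N) : G) = 1 := h.exp x hx
      rw [h1]
      exact Z.one_mem
  obtain ⟨E, iE, iM, π, ρ₀, h1, h2, h3, h4⟩ := H13.Chief.exists_module hsec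
  let φ : P' →* Multiplicative E :=
    { toFun := fun x => Multiplicative.ofAdd (π x)
      map_one' := by
        rw [(h3 1).mpr (Subgroup.one_mem _)]; rfl
      map_mul' := fun x y => by rw [h1]; rfl }
  have hφ : ∀ x, φ x = Multiplicative.ofAdd (π x) := fun x => rfl
  have hker : φ.ker = Z'.subgroupOf P' := by
    ext x
    rw [MonoidHom.mem_ker, mem_subgroupOf, ← h3 x, hφ, ofAdd_eq_one]
  have hsurj : Function.Surjective φ := by
    intro e
    obtain ⟨x, hx⟩ := h2 (Multiplicative.toAdd e)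
    exact ⟨x, by rw [hφ, hx]; rfl⟩
  have hcardE : Nat.card E = p ^ 2 := by
    have e1 := Subgroup.card_mul_index φ.ker
    rw [Subgroup.index_ker, MonoidHom.range_eq_top.mpr hsurj, Subgroup.card_top, hker,
      Nat.card_congr (subgroupOfEquivOfLe (H := Z') (K := P') hsec.le).toEquiv,
      Nat.card_congr (subgroupOfEquivOfLe (H := Z) (K := N) hZN).toEquiv,
      Nat.card_congr (subgroupOfEquivOfLe (H := (P : Subgroup G)) (K := N) hPN).toEquiv, h.cardZ, h.cardP] at e1
    have e2 : Nat.card (Multiplicative E) = Nat.card E := rfl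
    rw [e2] at e1
    apply Nat.eq_of_mul_eq_mul_left hpp.pos
    rw [e1]; ring
  haveI : Finite E := Nat.finite_of_card_ne_zero (by rw [hcardE]; exact pow_ne_zero _ hpp.ne_zero)
  haveI : Module.Finite (ZMod p) E := Module.Finite.of_finite
  have hfr : Module.finrank (ZMod p) E = 2 := by
    have e1 := Module.natCard_eq_pow_finrank (K := ZMod p) (V := E)
    rw [hcardE, Nat.card_zmod] at e1
    exact (Nat.pow_right_injective hpp.two_le e1).symm
  let b : Module.Basis (Fin 2) (ZMod p) E := Module.finBasisOfFinrankEq (ZMod p) E hfr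
  let ρ : N →* GL (Fin 2) (ZMod p) := MonoidHom.toHomUnits
    ((LinearMap.toMatrixAlgEquiv b : Module.End (ZMod p) E →* Matrix (Fin 2) (Fin 2) (ZMod p)).comp ρ₀)
  have hρ : ∀ n (e : E), (ρ n : Matrix (Fin 2) (Fin 2) (ZMod p)) *ᵥ b.equivFun e = b.equivFun (ρ₀ n e) := by
    intro n e
    exact LinearMap.toMatrix_mulVec_repr b b (ρ₀ n) e
  -- elements of P as elements of P'
  let ι : ∀ a : G, a ∈ P → P' := fun a ha => ⟨⟨a, hPN ha⟩, mem_subgroupOf.mpr ha⟩
  have hπmul : ∀ a (ha : a ∈ P) c (hc : c ∈ P), π (ι (a * c) (P.mul_mem ha hc)) = π (ι a ha) + π (ι c hc) :=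
    fun a ha c hc => h1 (ι a ha) (ι c hc)
  have hπpow : ∀ a (ha : a ∈ P) (j : ℕ), π (ι (a ^ j) (P.pow_mem ha j)) = (j : ZMod p) • π (ι a ha) := by
    intro a ha j
    have e1 : φ (ι a ha ^ j) = (φ (ι a ha)) ^ j := map_pow _ _ _
    have e2 : π (ι a ha ^ j) = j • π (ι a ha) := by
      have := congrArg Multiplicative.toAdd e1
      exact this
    have e3 : ι (a ^ j) (P.pow_mem ha j) = ι a ha ^ j := rfl
    rw [e3, e2, Nat.cast_smul_eq_nsmul]
  have hπZ : ∀ a (ha : a ∈ P), π (ι a ha) = 0 ↔ a ∈ Z := fun a ha => (h3 (ι a ha)).trans mem_subgroupOf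
  have hπeq : ∀ a (ha : a ∈ P) c (hc : c ∈ P), π (ι a ha) = π (ι c hc) → ∃ z ∈ Z, a = c * z := by
    intro a ha c hc hac
    have e1 : c⁻¹ * a ∈ P := P.mul_mem (P.inv_mem hc) ha
    have e2 : π (ι a ha) = π (ι c hc) + π (ι (c⁻¹ * a) e1) := by
      rw [← hπmul c hc _ e1]
      congr 1
      apply Subtype.ext
      apply Subtype.ext
      show a = c * (c⁻¹ * a)
      group
    rw [hac] at e2
    have e3 : π (ι (c⁻¹ * a) e1) = 0 := left_eq_add.mp e2
    exact ⟨c⁻¹ * a, (hπZ _ e1).mp e3, by group⟩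
  have hρ0 : ∀ n (hn : n ∈ N) a (ha : a ∈ P), ρ₀ ⟨n, hn⟩ (π (ι a ha)) = π (ι (n * a * n⁻¹) ((mem_normalizer_iff.mp hn a).mp ha)) :=
    fun n hn a ha => h4 ⟨n, hn⟩ (ι a ha)
  refine ⟨fun a x => ∃ (ha : a ∈ P), ∃ d : ZMod p, d ≠ 0 ∧ b.equivFun (π (ι a ha)) = d • vec x, ?_, ?_, ?_, ?_⟩
  · intro a ha haZ
    have h5 : b.equivFun (π (ι a ha)) ≠ 0 := by
      intro h6
      rw [LinearEquiv.map_eq_zero_iff, hπZ a ha] at h6
      exact haZ h6
    obtain ⟨x, d, hd, hx⟩ := exists_vec h5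
    exact ⟨x, ha, d, hd, hx⟩
  · intro x
    obtain ⟨y, hy⟩ := h2 (b.equivFun.symm (vec x))
    have hyP : (y : G) ∈ P := mem_subgroupOf.mp y.2
    have hιy : ι (y : G) hyP = y := rfl
    refine ⟨(y : G), hyP, ?_, hyP, 1, one_ne_zero, ?_⟩
    · intro hyZ
      rw [← hπZ _ hyP, hιy, hy] at hyZ
      have := congrArg b.equivFun hyZ
      rw [LinearEquiv.apply_symm_apply, map_zero] at this
      exact vec_ne x this
    · rw [hιy, hy, LinearEquiv.apply_symm_apply, one_smul]
  · rintro a ha' c hc' x ⟨ha, d, hd, hx⟩ ⟨hc, d', hd', hx'⟩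
    have h5 : π (ι a ha) = (d * d'⁻¹) • π (ι c hc) := by
      apply b.equivFun.injective
      rw [_root_.map_smul, hx, hx', smul_smul, mul_assoc, inv_mul_cancel₀ hd', mul_one]
    have h6 : π (ι a ha) = π (ι (c ^ (d * d'⁻¹).val) (P.pow_mem hc _)) := by
      rw [hπpow c hc, ZMod.natCast_zmod_val, h5]
    obtain ⟨z, hzZ, hz'⟩ := hπeq a ha _ (P.pow_mem hc _) h6
    exact ⟨_, z, hzZ, hz'⟩
  · intro T hT
    have hPker : P' ≤ ρ.ker := by
      intro n hn
      have hnP : (n : G) ∈ P := mem_subgroupOf.mp hn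
      have h5 : ρ₀ n = 1 := by
        apply LinearMap.ext
        intro e
        obtain ⟨y, rfl⟩ := h2 e
        have hyP : (y : G) ∈ P := mem_subgroupOf.mp y.2
        have h6 := hρ0 n n.2 y hyP
        have h7 : π (ι ((n : G) * y * (n : G)⁻¹) ((mem_normalizer_iff.mp n.2 y).mp hyP)) = π (ι y hyP) := by
          have h8 : (n : G) * y * (n : G)⁻¹ = ((n : G) * y * (n : G)⁻¹ * (y : G)⁻¹) * y := by group
          have h9 := h.com n hnP y hyP
          have h10 : π (ι ((n : G) * y * (n : G)⁻¹) ((mem_normalizer_iff.mp n.2 y).mp hyP)) =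
              π (ι (((n : G) * y * (n : G)⁻¹ * (y : G)⁻¹) * y) (P.mul_mem (h.le h9) hyP)) := by
            congr 1
            apply Subtype.ext
            apply Subtype.ext
            exact h8
          rw [h10, hπmul _ (h.le h9) _ hyP, (hπZ _ (h.le h9)).mpr h9, zero_add]
        rw [h7] at h6
        exact h6
      rw [MonoidHom.mem_ker]
      apply Units.ext
      show LinearMap.toMatrixAlgEquiv b (ρ₀ n) = 1
      rw [h5, map_one]
    have hPi : ¬ p ∣ P'.index := by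
      intro hd
      have h5 : P'.index = (P : Subgroup G).relIndex N := rfl
      have h6 : (P : Subgroup G).relIndex N ∣ (P : Subgroup G).index := ⟨_, (relIndex_mul_index hPN).symm⟩
      exact P.not_dvd_index ((h5 ▸ hd).trans h6)
    apply lines hp2 ρ P' hPker hPi hw T
    intro x hx
    obtain ⟨a, haP, haZ, ⟨ha, d, hd, hax⟩, n, hn, hnz, hna⟩ := hT x hx
    have hconjpow : ∀ (y : G) (k : ℕ), n ^ k * y * (n ^ k)⁻¹ = (MulAut.conj n ^ k) y := by
      intro y k
      rw [← map_pow]; rfl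
    have hkz : ∀ k : ℕ, n ^ k * z₀ * (n ^ k)⁻¹ = z₀ ^ (s ^ k) := by
      intro k
      induction k with
      | zero => simp
      | succ k ih =>
        calc n ^ (k + 1) * z₀ * (n ^ (k + 1))⁻¹ = n * (n ^ k * z₀ * (n ^ k)⁻¹) * n⁻¹ := by
              rw [pow_succ' n k]; group
          _ = (n * z₀ * n⁻¹) ^ (s ^ k) := by rw [ih, conj_pow]
          _ = z₀ ^ (s ^ (k + 1)) := by rw [hnz, ← pow_mul, pow_succ' s k]
    have hka : ∀ k : ℕ, n ^ k * a * (n ^ k)⁻¹ = a ^ (s' ^ k) := by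
      intro k
      induction k with
      | zero => simp
      | succ k ih =>
        calc n ^ (k + 1) * a * (n ^ (k + 1))⁻¹ = n * (n ^ k * a * (n ^ k)⁻¹) * n⁻¹ := by
              rw [pow_succ' n k]; group
          _ = (n * a * n⁻¹) ^ (s' ^ k) := by rw [ih, conj_pow]
          _ = a ^ (s' ^ (k + 1)) := by rw [hna, ← pow_mul, pow_succ' s' k]
    refine ⟨⟨n, hn⟩, ?_, ?_⟩
    · rw [fix_iff]
      refine ⟨(s' : ZMod p), ?_⟩
      have h5 : d • ((ρ ⟨n, hn⟩ : Matrix (Fin 2) (Fin 2) (ZMod p)) *ᵥ vec x) = d • ((s' : ZMod p) • vec x) := by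
        rw [← Matrix.mulVec_smul, ← hax, hρ, hρ0 n hn a ha]
        have h6 : π (ι (n * a * n⁻¹) ((mem_normalizer_iff.mp hn a).mp ha)) = (s' : ZMod p) • π (ι a ha) := by
          rw [← hπpow a ha s']
          congr 1
          apply Subtype.ext
          apply Subtype.ext
          exact hna
        rw [h6, _root_.map_smul, hax, smul_comm]
      exact smul_right_injective _ hd h5
    · intro k hk hfix
      apply hpw k hk
      obtain ⟨c, hc⟩ := scalar_of_fix hfix
      have hnk : n ^ k ∈ N := N.pow_mem hn k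
      have hρk : ρ ⟨n, hn⟩ ^ k = ρ ⟨n ^ k, hnk⟩ := by
        rw [← map_pow]; rfl
      rw [hρk] at hc
      have hsc : ∀ e : E, ρ₀ ⟨n ^ k, hnk⟩ e = c • e := by
        intro e
        apply b.equivFun.injective
        rw [← hρ, hc, _root_.map_smul]
      have hca : c = (s' : ZMod p) ^ k := by
        have h5 := hsc (π (ι a ha))
        rw [hρ0 _ hnk a ha] at h5
        have h6 : π (ι (n ^ k * a * (n ^ k)⁻¹) ((mem_normalizer_iff.mp hnk a).mp ha)) = ((s' ^ k : ℕ) : ZMod p) • π (ι a ha) := by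
          rw [← hπpow a ha]
          congr 1
          apply Subtype.ext
          apply Subtype.ext
          exact hka k
        rw [h6, ← sub_eq_zero, ← sub_smul] at h5
        rcases smul_eq_zero.mp h5 with h7 | h7
        · rw [sub_eq_zero] at h7
          rw [← h7]; push_cast; rfl
        · exact absurd ((hπZ a ha).mp h7) haZ
      obtain ⟨y, hy, hya⟩ := h.com_surj haP haZ hz
      have hny : n ^ k * y * (n ^ k)⁻¹ ∈ P := (mem_normalizer_iff.mp hnk y).mp hy
      obtain ⟨z', hz'Z, hz'⟩ := hπeq _ hny (y ^ c.val) (P.pow_mem hy _) (by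
        rw [← hρ0 _ hnk _ hy, hsc, hπpow y hy, ZMod.natCast_zmod_val])
      have hcm : Commute z₀ a := (h.cen z₀ hz a haP).symm
      have hyj : ∀ j : ℕ, y ^ j * a * (y ^ j)⁻¹ = z₀ ^ j * a := by
        intro j
        induction j with
        | zero => simp
        | succ j ih =>
          have h5 : y * z₀ ^ j = z₀ ^ j * y := h.cen _ (Z.pow_mem hz j) y hy
          calc y ^ (j + 1) * a * (y ^ (j + 1))⁻¹ = y * (y ^ j * a * (y ^ j)⁻¹) * y⁻¹ := by
                rw [pow_succ' y j]; group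
            _ = y * (z₀ ^ j * a) * y⁻¹ := by rw [ih]
            _ = z₀ ^ j * (y * a * y⁻¹) := by rw [← mul_assoc y, h5]; group
            _ = z₀ ^ (j + 1) * a := by rw [hya, pow_succ]; group
      have hE1 : (n ^ k * y * (n ^ k)⁻¹) * (n ^ k * a * (n ^ k)⁻¹) * (n ^ k * y * (n ^ k)⁻¹)⁻¹ =
          (n ^ k * z₀ * (n ^ k)⁻¹) * (n ^ k * a * (n ^ k)⁻¹) := by
        calc (n ^ k * y * (n ^ k)⁻¹) * (n ^ k * a * (n ^ k)⁻¹) * (n ^ k * y * (n ^ k)⁻¹)⁻¹ = n ^ k * (y * a * y⁻¹) * (n ^ k)⁻¹ := by group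
          _ = _ := by rw [hya]; group
      rw [hz', hka, hkz] at hE1
      have hzc : z' * a ^ s' ^ k * z'⁻¹ = a ^ s' ^ k := by
        rw [← h.cen z' hz'Z _ (P.pow_mem haP _), mul_inv_cancel_right]
      have hE2 : z₀ ^ (c.val * s' ^ k) = z₀ ^ (s ^ k) := by
        have h5 : y ^ c.val * z' * a ^ s' ^ k * (y ^ c.val * z')⁻¹ = (z₀ ^ c.val * a) ^ s' ^ k := by
          calc y ^ c.val * z' * a ^ s' ^ k * (y ^ c.val * z')⁻¹ = y ^ c.val * (z' * a ^ s' ^ k * z'⁻¹) * (y ^ c.val)⁻¹ := by group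
            _ = (y ^ c.val * a * (y ^ c.val)⁻¹) ^ s' ^ k := by rw [hzc, conj_pow]
            _ = (z₀ ^ c.val * a) ^ s' ^ k := by rw [hyj]
        rw [h5, (hcm.pow_left c.val).mul_pow, ← pow_mul] at hE1
        exact mul_right_cancel hE1
      have hord : orderOf z₀ = p := orderOf_eq_prime (h.exp z₀ (h.le hz)) hz1
      rw [pow_eq_pow_iff_modEq, hord, ← ZMod.natCast_eq_natCast_iff] at hE2
      push_cast at hE2
      rw [ZMod.natCast_zmod_val, hca] at hE2
      rw [← hs', orderOf_dvd_iff_pow_eq_one]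
      calc (s' : ZMod p) ^ (3 * k) = ((s' : ZMod p) ^ k * (s' : ZMod p) ^ k) * (s' : ZMod p) ^ k := by ring
        _ = ((s : ZMod p) * (s' : ZMod p)) ^ k := by rw [hE2, mul_pow]
        _ = 1 := by rw [hss, one_pow]

end Cfsg.Agent.H22.KC
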