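import Mathlib
import Cfsg.Agent.H22_KC5

/-!
Extraspecial Sylow subgroups of order `p³`: consequences of the counting.
-/

set_option autoImplicit false

namespace Cfsg.Agent.H22.KC

open Subgroup

universe u

theorem exists_aut {p : ℕ} [hp : Fact p.Prime] {A : Type*} [Group A] (hcomm : ∀ x y : A, x * y = y * x) (hexp : ∀ x : A, x ^ p = 1)
    {z a : A} (hza : z ∉ zpowers a) (j : ℕ) (hj : a ^ j ≠ 1) :
    ∃ φ : MulAut A, orderOf φ = p ∧ φ a = a ∧ φ z = z * a ^ j := by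
  letI iC : CommGroup A := { (inferInstance : Group A) with mul_comm := hcomm }
  letI iA : AddCommGroup (Additive A) := Additive.addCommGroup
  letI iM : Module (ZMod p) (Additive A) := AddCommGroup.zmodModule (n := p) (fun x => hexp (Additive.toMul x))
  have hz : Additive.ofMul z ∉ (Submodule.span (ZMod p) {Additive.ofMul a} : Submodule (ZMod p) (Additive A)) := by
    intro h
    obtain ⟨c, hc⟩ := Submodule.mem_span_singleton.mp h
    apply hza
    refine ⟨(c.val : ℤ), ?_⟩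
    have h1 : (c.val : ZMod p) • Additive.ofMul a = Additive.ofMul z := by rw [ZMod.natCast_zmod_val, hc]
    rw [Nat.cast_smul_eq_nsmul] at h1
    show a ^ (c.val : ℤ) = z
    rw [zpow_natCast]
    exact h1
  obtain ⟨f₀, hf₀, hle⟩ := Submodule.exists_le_ker_of_notMem hz
  have hfa : f₀ (Additive.ofMul a) = 0 := hle (Submodule.mem_span_singleton_self _)
  let f : Additive A →ₗ[ZMod p] ZMod p := (f₀ (Additive.ofMul z))⁻¹ • f₀
  have hf1 : f (Additive.ofMul z) = 1 := by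
    show (f₀ (Additive.ofMul z))⁻¹ * f₀ (Additive.ofMul z) = 1
    exact inv_mul_cancel₀ hf₀
  set w : Additive A := Additive.ofMul (a ^ j) with hw
  have hfw : f w = 0 := by
    have h1 : w = j • Additive.ofMul a := rfl
    rw [h1, map_nsmul]
    show j • ((f₀ (Additive.ofMul z))⁻¹ * f₀ (Additive.ofMul a)) = 0
    rw [hfa, mul_zero, smul_zero]
  have hw0 : w ≠ 0 := fun h => hj h
  let Φ : MulAut A :=
    { toFun := fun x => Additive.toMul (Additive.ofMul x + f (Additive.ofMul x) • w)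
      invFun := fun x => Additive.toMul (Additive.ofMul x - f (Additive.ofMul x) • w)
      left_inv := by
        intro x
        apply Additive.ofMul.injective
        show (Additive.ofMul x + f (Additive.ofMul x) • w) - f (Additive.ofMul x + f (Additive.ofMul x) • w) • w = Additive.ofMul x
        rw [map_add, map_smul, hfw, smul_zero, add_zero, add_sub_cancel_right]
      right_inv := by
        intro x
        apply Additive.ofMul.injective
        show (Additive.ofMul x - f (Additive.ofMul x) • w) + f (Additive.ofMul x - f (Additive.ofMul x) • w) • w = Additive.ofMul x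
        rw [map_sub, map_smul, hfw, smul_zero, sub_zero, sub_add_cancel]
      map_mul' := by
        intro x y
        apply Additive.ofMul.injective
        show (Additive.ofMul x + Additive.ofMul y) + f (Additive.ofMul x + Additive.ofMul y) • w =
          (Additive.ofMul x + f (Additive.ofMul x) • w) + (Additive.ofMul y + f (Additive.ofMul y) • w)
        rw [map_add, add_smul]
        abel }
  have hΦ : ∀ x, Additive.ofMul (Φ x) = Additive.ofMul x + f (Additive.ofMul x) • w := fun x => rfl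
  have hpow : ∀ (k : ℕ) x, Additive.ofMul ((Φ ^ k) x) = Additive.ofMul x + (k : ZMod p) • f (Additive.ofMul x) • w := by
    intro k
    induction k with
    | zero => intro x; simp
    | succ k ih =>
      intro x
      rw [pow_succ', MulAut.mul_apply, hΦ, ih, map_add, map_smul, map_smul, hfw, smul_zero, smul_zero, add_zero, Nat.cast_succ,
        add_smul, one_smul, add_assoc]
  refine ⟨Φ, ?_, ?_, ?_⟩
  · apply orderOf_eq_prime
    · ext x
      apply Additive.ofMul.injective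
      rw [hpow]
      simp
    · intro h
      have h1 := hΦ z
      rw [h, hf1, one_smul] at h1
      have h2 : Additive.ofMul z = Additive.ofMul z + w := h1
      exact hw0 (left_eq_add.mp h2)
  · apply Additive.ofMul.injective
    rw [hΦ]
    have : f (Additive.ofMul a) = 0 := by
      show (f₀ (Additive.ofMul z))⁻¹ * f₀ (Additive.ofMul a) = 0
      rw [hfa, mul_zero]
    rw [this, zero_smul, add_zero]
  · apply Additive.ofMul.injective
    rw [hΦ, hf1, one_smul]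
    rfl

/-- primitive root data -/
theorem exists_root (p : ℕ) [hp : Fact p.Prime] : ∃ s s' : ℕ, orderOf (s' : ZMod p) = p - 1 ∧ (s : ZMod p) * (s' : ZMod p) = 1 ∧
    1 ≤ s ∧ 1 ≤ s' := by
  obtain ⟨g, hg⟩ := IsCyclic.exists_generator (α := (ZMod p)ˣ)
  have h1 : orderOf g = p - 1 := by
    rw [orderOf_eq_card_of_forall_mem_zpowers hg, Nat.card_eq_fintype_card, ZMod.card_units]
  have h2 : (((g⁻¹ : (ZMod p)ˣ) : ZMod p).val : ZMod p) * (((g : ZMod p).val : ℕ) : ZMod p) = 1 := by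
    rw [ZMod.natCast_zmod_val, ZMod.natCast_zmod_val, Units.inv_mul]
  refine ⟨((g⁻¹ : (ZMod p)ˣ) : ZMod p).val, (g : ZMod p).val, ?_, h2, ?_, ?_⟩
  · rw [ZMod.natCast_zmod_val, orderOf_units, h1]
  · rw [Nat.one_le_iff_ne_zero]
    intro h0
    rw [h0, Nat.cast_zero, zero_mul] at h2
    exact zero_ne_one h2
  · rw [Nat.one_le_iff_ne_zero]
    intro h0
    rw [h0, Nat.cast_zero, mul_zero] at h2
    exact zero_ne_one h2

variable {p : ℕ} [hp : Fact p.Prime] {G : Type u} [Group G] {P : Sylow p G} {Z : Subgroup G}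

theorem XS.good [Finite G] (h : XS p P Z) {z₀ a : G} (hz : z₀ ∈ Z) (hz1 : z₀ ≠ 1) (ha : a ∈ P) (haZ : a ∉ Z) {s s' : ℕ}
    (hs : 1 ≤ s) (hs' : 1 ≤ s') (hss : (s : ZMod p) * (s' : ZMod p) = 1)
    (hL : ∀ j : ℕ, ∃ g : G, g * a * g⁻¹ = a ∧ g * z₀ * g⁻¹ = z₀ * a ^ j) :
    ∃ n ∈ normalizer ((P : Subgroup G) : Set G), n * z₀ * n⁻¹ = z₀ ^ s ∧ n * a * n⁻¹ = a ^ s' := by
  have hss' : ∀ x ∈ P, x ^ (s * s') = x := by
    intro x hx
    have h1 : ((s * s' : ℕ) : ZMod p) = ((1 : ℕ) : ZMod p) := by push_cast; rw [hss]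
    rw [ZMod.natCast_eq_natCast_iff] at h1
    conv_rhs => rw [← pow_one x]
    rw [pow_eq_pow_iff_modEq]
    exact h1.of_dvd (orderOf_dvd_of_pow_eq_one (h.exp x hx))
  obtain ⟨g, hg1, hg2⟩ := h.torus hz ha haZ hL hs hs' hss'
  exact h.lift hz hz1 ha haZ hss' hg1 hg2

theorem XS.sup_eq [Finite G] (h : XS p P Z) {a : G} {A : Subgroup G} (hcA : Nat.card A = p ^ 2) (haA : a ∈ A) (haZ : a ∉ Z)
    (hZA : Z ≤ A) : zpowers a ⊔ Z = A := by
  have hle : zpowers a ⊔ Z ≤ A := sup_le (by rw [zpowers_le]; exact haA) hZA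
  apply Subgroup.eq_of_le_of_card_ge hle
  have h1 := Subgroup.card_dvd_of_le hle
  rw [hcA] at h1
  obtain ⟨k, hk, hk'⟩ := (Nat.dvd_prime_pow hp.out).mp h1
  have h2 : Nat.card Z < Nat.card ↥(zpowers a ⊔ Z) := by
    by_contra hcon
    push Not at hcon
    have h3 := Subgroup.eq_of_le_of_card_ge (le_sup_right : Z ≤ zpowers a ⊔ Z) hcon
    apply haZ
    rw [h3]
    exact (le_sup_left : zpowers a ≤ zpowers a ⊔ Z) (mem_zpowers a)
  rw [hk', h.cardZ] at h2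
  have h3 : 1 < k := by
    by_contra hcon
    push Not at hcon
    have := Nat.pow_le_pow_right hp.out.pos hcon
    rw [pow_one] at this
    omega
  have h4 : k = 2 := by omega
  rw [hcA, hk', h4]

theorem XS.Z_le [Finite G] (h : XS p P Z) {A : Subgroup G} (hAP : A ≤ P) (hcA : Nat.card A = p ^ 2) : Z ≤ A := by
  by_contra hZA
  have hlt : A < A ⊔ Z := by
    refine lt_of_le_of_ne le_sup_left ?_
    intro h1
    exact hZA (le_sup_right.trans h1.ge)
  have hSP : A ⊔ Z ≤ P := sup_le hAP h.le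
  have h1 := Subgroup.card_dvd_of_le hSP
  have hcP : Nat.card (P : Subgroup G) = p ^ 3 := h.cardP
  rw [hcP] at h1
  obtain ⟨k, hk, hk'⟩ := (Nat.dvd_prime_pow hp.out).mp h1
  have h2 : Nat.card A < Nat.card ↥(A ⊔ Z) := by
    by_contra hcon
    push Not at hcon
    exact hlt.ne (Subgroup.eq_of_le_of_card_ge le_sup_left hcon)
  rw [hcA, hk'] at h2
  have h3 : 2 < k := (Nat.pow_lt_pow_iff_right hp.out.one_lt).mp h2
  have h4 : k = 3 := by omega
  have h5 : A ⊔ Z = P := Subgroup.eq_of_le_of_card_ge hSP (by rw [hk', h4, hcP])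
  obtain ⟨a, haA, haZ⟩ : ∃ a ∈ A, a ∉ Z := by
    by_contra hcon
    push Not at hcon
    have h6 : Nat.card A ≤ Nat.card Z := Subgroup.card_le_of_le hcon
    rw [hcA, h.cardZ] at h6
    have := hp.out.one_lt
    nlinarith
  apply haZ
  apply h.max a (hAP haA)
  have h6 : (P : Subgroup G) ≤ centralizer {a} := by
    rw [← h5]
    apply sup_le
    · intro x hx
      rw [mem_centralizer_singleton_iff]
      exact congrArg Subtype.val ((IsPGroup.isMulCommutative_of_card_eq_prime_sq hcA).is_comm.comm (⟨x, hx⟩ : A) ⟨a, haA⟩)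
    · intro z hz
      rw [mem_centralizer_singleton_iff]
      exact (h.cen z hz a (hAP haA)).symm
  intro y hy
  exact mem_centralizer_singleton_iff.mp (h6 hy)

theorem XS.not_mem [Finite G] (h : XS p P Z) {z₀ a : G} (hz : z₀ ∈ Z) (hz1 : z₀ ≠ 1) (ha : a ∈ P) (haZ : a ∉ Z) :
    z₀ ∉ zpowers a := by
  intro hmem
  have ha1 : a ≠ 1 := by
    rintro rfl
    exact haZ Z.one_mem
  have h1 : orderOf a = p := orderOf_eq_prime (h.exp a ha) ha1
  have h2 : orderOf z₀ = p := orderOf_eq_prime (h.exp z₀ (h.le hz)) hz1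
  have h3 : zpowers z₀ ≤ zpowers a := by rwa [zpowers_le]
  have h4 : zpowers z₀ = zpowers a := Subgroup.eq_of_le_of_card_ge h3 (by rw [Nat.card_zpowers, Nat.card_zpowers, h1, h2])
  apply haZ
  have h5 : a ∈ zpowers z₀ := by rw [h4]; exact mem_zpowers a
  exact (zpowers_le.mpr hz) h5

theorem XS.trans_of_conj [Finite G] (h : XS p P Z) {z₀ a : G} (hz : z₀ ∈ Z) (hz1 : z₀ ≠ 1) (ha : a ∈ P) (haZ : a ∉ Z)
    {g₁ : G} (hg₁ : g₁ * z₀ * g₁⁻¹ = a) (j : ℕ) : ∃ g : G, g * a * g⁻¹ = a ∧ g * z₀ * g⁻¹ = z₀ * a ^ j := by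
  have hza : a * z₀ = z₀ * a := h.cen z₀ hz a ha
  have hPM : (P : Subgroup G) ≤ centralizer {z₀} := by
    intro x hx
    rw [mem_centralizer_singleton_iff]
    exact h.cen z₀ hz x hx
  have hzP : zpowers z₀ ≤ (P : Subgroup G) := zpowers_le.mpr (h.le hz)
  have hRp : IsPGroup p ((zpowers z₀).map (MulAut.conj g₁⁻¹).toMonoidHom) := (P.2.to_le hzP).map _
  have hRM : (zpowers z₀).map (MulAut.conj g₁⁻¹).toMonoidHom ≤ centralizer {z₀} := by
    rw [Subgroup.map_le_iff_le_comap, zpowers_le, mem_comap, mem_centralizer_singleton_iff]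
    show g₁⁻¹ * z₀ * g₁⁻¹⁻¹ * z₀ = z₀ * (g₁⁻¹ * z₀ * g₁⁻¹⁻¹)
    have h1 : z₀ = g₁⁻¹ * a * g₁ := by rw [← hg₁]; group
    calc g₁⁻¹ * z₀ * g₁⁻¹⁻¹ * z₀ = g₁⁻¹ * z₀ * g₁⁻¹⁻¹ * (g₁⁻¹ * a * g₁) := by rw [← h1]
      _ = g₁⁻¹ * (z₀ * a) * g₁ := by group
      _ = g₁⁻¹ * (a * z₀) * g₁ := by rw [hza]
      _ = (g₁⁻¹ * a * g₁) * (g₁⁻¹ * z₀ * g₁⁻¹⁻¹) := by group
      _ = z₀ * (g₁⁻¹ * z₀ * g₁⁻¹⁻¹) := by rw [← h1]
  obtain ⟨m, hmM, hm⟩ := sylow_in hPM hRM hRp
  rw [mem_centralizer_singleton_iff] at hmM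
  have hb := hm (g₁⁻¹ * z₀ * g₁⁻¹⁻¹) ⟨z₀, mem_zpowers z₀, rfl⟩
  set b := m * (g₁⁻¹ * z₀ * g₁⁻¹⁻¹) * m⁻¹ with hbdef
  have hmz : m⁻¹ * z₀ * m = z₀ := by rw [mul_assoc, ← hmM]; group
  have hg0z : (g₁ * m⁻¹) * z₀ * (g₁ * m⁻¹)⁻¹ = a := by
    calc (g₁ * m⁻¹) * z₀ * (g₁ * m⁻¹)⁻¹ = g₁ * (m⁻¹ * z₀ * m) * g₁⁻¹ := by group
      _ = a := by rw [hmz, hg₁]
  have hg0b : (g₁ * m⁻¹) * b * (g₁ * m⁻¹)⁻¹ = z₀ := by rw [hbdef]; group
  have hbZ : b ∉ Z := by
    intro hbZ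
    obtain ⟨i, hi⟩ := h.gen hz hz1 hbZ
    apply h.not_mem hz hz1 ha haZ
    rw [hi, ← conj_pow, hg0z] at hg0b
    rw [← hg0b]
    exact npow_mem_zpowers a i
  obtain ⟨x, hx, hxb⟩ := h.com_surj hb hbZ (Z.pow_mem hz j)
  have hxz : x * z₀ * x⁻¹ = z₀ := by rw [h.cen z₀ hz x hx, mul_inv_cancel_right]
  have hza' : Commute z₀ a := hza.symm
  refine ⟨(g₁ * m⁻¹) * x * (g₁ * m⁻¹)⁻¹, ?_, ?_⟩
  · calc (g₁ * m⁻¹) * x * (g₁ * m⁻¹)⁻¹ * a * ((g₁ * m⁻¹) * x * (g₁ * m⁻¹)⁻¹)⁻¹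
        = (g₁ * m⁻¹) * (x * ((g₁ * m⁻¹)⁻¹ * a * (g₁ * m⁻¹)) * x⁻¹) * (g₁ * m⁻¹)⁻¹ := by group
      _ = (g₁ * m⁻¹) * (x * z₀ * x⁻¹) * (g₁ * m⁻¹)⁻¹ := by rw [← hg0z]; group
      _ = a := by rw [hxz, hg0z]
  · calc (g₁ * m⁻¹) * x * (g₁ * m⁻¹)⁻¹ * z₀ * ((g₁ * m⁻¹) * x * (g₁ * m⁻¹)⁻¹)⁻¹
        = (g₁ * m⁻¹) * (x * ((g₁ * m⁻¹)⁻¹ * z₀ * (g₁ * m⁻¹)) * x⁻¹) * (g₁ * m⁻¹)⁻¹ := by group
      _ = (g₁ * m⁻¹) * (x * b * x⁻¹) * (g₁ * m⁻¹)⁻¹ := by
        have h9 : (g₁ * m⁻¹)⁻¹ * z₀ * (g₁ * m⁻¹) = b := by rw [← hg0b]; group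
        rw [h9]
      _ = ((g₁ * m⁻¹) * z₀ * (g₁ * m⁻¹)⁻¹) ^ j * ((g₁ * m⁻¹) * b * (g₁ * m⁻¹)⁻¹) := by rw [hxb, conj_pow]; group
      _ = z₀ * a ^ j := by rw [hg0z, hg0b]; exact (hza'.pow_right j).symm

end Cfsg.Agent.H22.KC
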