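import Cfsg.Agent.H22_PiClasses
import Cfsg.Agent.H22_ClassCount2
import Cfsg.Agent.H1_Coprime

/-!
Class counting for π-elements, II.
-/

set_option autoImplicit false

namespace Cfsg.Agent.H22.PiClasses

open Subgroup Cfsg.Agent.H22.ClassCount

theorem card_step' {H : Type*} [Group H] [Finite H] (π : Finset ℕ) (r : ℕ) (hr : r.Prime)
    (B : ℕ)
    (hB : ∀ x : H, (∃ k : ℕ, orderOf x = r ^ k) → Nat.card {c : ConjClasses (centralizer ({x} : Set H)) //
      ∀ x ∈ c.carrier, ∀ s : ℕ, s.Prime → s ∣ orderOf x → s ∈ π.erase r} ≤ B) :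
    Nat.card {c : ConjClasses H // ∀ x ∈ c.carrier, ∀ s : ℕ, s.Prime → s ∣ orderOf x → s ∈ π} ≤
      Nat.card {c : ConjClasses H // ∀ x ∈ c.carrier, ∃ k : ℕ, orderOf x = r ^ k} * B := by
  classical
  set rCl := {c : ConjClasses H // ∀ x ∈ c.carrier, ∃ k : ℕ, orderOf x = r ^ k}
  have hrep : ∀ C : rCl, ∃ x : H, ConjClasses.mk x = C.1 := fun C => ConjClasses.exists_rep C.1
  choose rep hrep using hrep
  let T : rCl → Type _ := fun C => {c : ConjClasses (centralizer ({rep C} : Set H)) //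
      ∀ x ∈ c.carrier, ∀ s : ℕ, s.Prime → s ∣ orderOf x → s ∈ π.erase r}
  have hTfin : ∀ C, Finite (T C) := fun C => inferInstance
  have hrepD : ∀ (C : rCl) (D : T C), ∃ x : centralizer ({rep C} : Set H), ConjClasses.mk x = D.1 :=
    fun C D => ConjClasses.exists_rep D.1
  choose repD hrepD using hrepD
  let F : (Σ C : rCl, T C) → ConjClasses H := fun z => ConjClasses.mk (rep z.1 * (repD z.1 z.2 : H))
  have key : ∀ c : {c : ConjClasses H // ∀ x ∈ c.carrier, ∀ s : ℕ, s.Prime → s ∣ orderOf x → s ∈ π},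
      ∃ z, F z = c.1 := by
    rintro ⟨c, hc⟩
    obtain ⟨g, rfl⟩ := ConjClasses.exists_rep c
    obtain ⟨i, j, hij, hi, hj, hj2⟩ := exists_rpart r hr g
    let C : rCl := ⟨ConjClasses.mk (g ^ i), fun x hx => by
      rw [orderOf_eq_of_mem_carrier hx]; exact hi⟩
    have h1 : IsConj (g ^ i) (rep C) := by
      rw [← ConjClasses.mk_eq_mk_iff_isConj, hrep C]
    obtain ⟨h, hh⟩ := isConj_iff.mp h1
    have hcomm : Commute (rep C) (h * g ^ j * h⁻¹) := by
      rw [← hh]
      have : Commute (g ^ i) (g ^ j) := (Commute.refl g).zpow_zpow i j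
      show h * g ^ i * h⁻¹ * (h * g ^ j * h⁻¹) = h * g ^ j * h⁻¹ * (h * g ^ i * h⁻¹)
      calc h * g ^ i * h⁻¹ * (h * g ^ j * h⁻¹) = h * (g ^ i * g ^ j) * h⁻¹ := by group
        _ = h * (g ^ j * g ^ i) * h⁻¹ := by rw [this.eq]
        _ = _ := by group
    have hmem : h * g ^ j * h⁻¹ ∈ centralizer ({rep C} : Set H) := by
      rw [mem_centralizer_singleton_iff]
      exact hcomm.eq.symm
    let D : T C := ⟨ConjClasses.mk (⟨_, hmem⟩ : centralizer ({rep C} : Set H)), by
      intro x hx s hs hsx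
      rw [orderOf_eq_of_mem_carrier hx, Subgroup.orderOf_mk, orderOf_conj'] at hsx
      rw [Finset.mem_erase]
      refine ⟨?_, hc g ConjClasses.mem_carrier_mk s hs (hsx.trans hj2)⟩
      rintro rfl
      exact hj hsx⟩
    refine ⟨⟨C, D⟩, ?_⟩
    show ConjClasses.mk (rep C * (repD C D : H)) = ConjClasses.mk g
    have h2 : IsConj (⟨_, hmem⟩ : centralizer ({rep C} : Set H)) (repD C D) := by
      rw [← ConjClasses.mk_eq_mk_iff_isConj, hrepD C D]
    obtain ⟨k, hk⟩ := isConj_iff.mp h2
    have hk' : (k : H) * (h * g ^ j * h⁻¹) * (k : H)⁻¹ = (repD C D : H) := congrArg Subtype.val hk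
    have hkc : (k : H) * rep C = rep C * k := mem_centralizer_singleton_iff.mp k.2
    rw [ConjClasses.mk_eq_mk_iff_isConj]
    apply IsConj.symm
    rw [isConj_iff]
    refine ⟨k * h, ?_⟩
    calc (k : H) * h * g * (k * h)⁻¹ = k * h * (g ^ i * g ^ j) * (k * h)⁻¹ := by rw [hij]
      _ = (k * (h * g ^ i * h⁻¹)) * (h * g ^ j * h⁻¹) * (k : H)⁻¹ := by group
      _ = (k * rep C) * (h * g ^ j * h⁻¹) * (k : H)⁻¹ := by rw [hh]
      _ = rep C * (k * (h * g ^ j * h⁻¹) * (k : H)⁻¹) := by rw [hkc]; group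
      _ = _ := by rw [hk']
  choose f hf using key
  have hinj : Function.Injective f := by
    intro c d hcd
    apply Subtype.ext
    rw [← hf c, ← hf d, hcd]
  have : Fintype rCl := Fintype.ofFinite _
  calc Nat.card {c : ConjClasses H // ∀ x ∈ c.carrier, ∀ s : ℕ, s.Prime → s ∣ orderOf x → s ∈ π}
      ≤ Nat.card (Σ C : rCl, T C) := Nat.card_le_card_of_injective f hinj
    _ = ∑ C : rCl, Nat.card (T C) := by
        rw [Nat.card_sigma]
    _ ≤ ∑ C : rCl, B := Finset.sum_le_sum fun C _ => hB (rep C) (by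
        have h1 := C.2 (rep C) (by rw [← hrep C]; exact ConjClasses.mem_carrier_mk)
        exact h1)
    _ = _ := by rw [Finset.sum_const, Finset.card_univ, smul_eq_mul, Nat.card_eq_fintype_card]

/-- number of `σ`-classes of `C_G(x)` for a `2`-element `x` -/
theorem card_centralizer_le {G : Type*} [Group G] [Finite G] (N : Subgroup G) [hN : N.Normal]
    (hodd : Odd (Nat.card N)) (σ : Finset ℕ)
    (hNσ : ∀ y : G, (∀ s : ℕ, s.Prime → s ∣ orderOf y → s ∈ σ) → y ∈ N) (x : G) (hx : ∃ k : ℕ, orderOf x = 2 ^ k) :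
    Nat.card {c : ConjClasses (centralizer ({x} : Set G)) // ∀ x ∈ c.carrier, ∀ s : ℕ, s.Prime → s ∣ orderOf x → s ∈ σ} ≤
    Nat.card {c : ConjClasses N // ∀ x ∈ c.carrier, ∀ s : ℕ, s.Prime → s ∣ orderOf x → s ∈ σ} := by
  classical
  set C := centralizer ({x} : Set G) with hC
  have hrep : ∀ c : {c : ConjClasses C // ∀ x ∈ c.carrier, ∀ s : ℕ, s.Prime → s ∣ orderOf x → s ∈ σ},
      ∃ y : C, ConjClasses.mk y = c.1 := fun c => ConjClasses.exists_rep c.1
  choose f hf using hrep
  have hfσ : ∀ c, ∀ s : ℕ, s.Prime → s ∣ orderOf (f c : G) → s ∈ σ := by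
    intro c s hs hsd
    refine c.2 (f c) ?_ s hs ?_
    · rw [← hf c]; exact ConjClasses.mem_carrier_mk
    · rwa [← Subgroup.orderOf_coe]
  have hfN : ∀ c, (f c : G) ∈ N := fun c => hNσ _ (hfσ c)
  apply Nat.card_le_card_of_injective (fun c => (⟨ConjClasses.mk (⟨(f c : G), hfN c⟩ : N), by
    intro y hy s hs hsy
    rw [orderOf_eq_of_mem_carrier hy, Subgroup.orderOf_mk] at hsy
    exact hfσ c s hs hsy⟩ : {c : ConjClasses N // ∀ x ∈ c.carrier, ∀ s : ℕ, s.Prime → s ∣ orderOf x → s ∈ σ}))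
  intro c d hcd
  have h1 : ConjClasses.mk (⟨(f c : G), hfN c⟩ : N) = ConjClasses.mk (⟨(f d : G), hfN d⟩ : N) := congrArg Subtype.val hcd
  rw [ConjClasses.mk_eq_mk_iff_isConj] at h1
  obtain ⟨n, hn⟩ := isConj_iff.mp h1
  have hn' : (n : G) * (f c : G) * (n : G)⁻¹ = (f d : G) := congrArg Subtype.val hn
  obtain ⟨k, hk⟩ := hx
  have hcop : (Nat.card (zpowers x)).Coprime (Nat.card N) := by
    rw [Nat.card_zpowers, hk]
    exact Nat.Coprime.pow_left _ (Nat.coprime_two_left.mpr hodd)
  have hfix : ∀ c, ∀ a ∈ zpowers x, (MulAut.conj a) (f c : G) = (f c : G) := by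
    intro c a ha
    rw [mem_zpowers_iff] at ha
    obtain ⟨i, rfl⟩ := ha
    have h2 : (f c : G) * x = x * (f c : G) := mem_centralizer_singleton_iff.mp (f c).2
    have h3 : Commute (x ^ i) (f c : G) := (Commute.symm h2).zpow_left i
    rw [MulAut.conj_apply, h3.eq]; group
  obtain ⟨u, hu, hu2⟩ := @H1.Coprime.glauberman_conj G _ _ G (MulAction.compHom G (MulAut.conj : G →* MulAut G))
    (zpowers x) N (by rw [normalizer_eq_top]; exact le_top) hcop (Or.inl inferInstance) (f c : G) (f d : G)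
    (hfix c) (hfix d) (n : G) n.2 hn'
  apply Subtype.ext
  rw [← hf c, ← hf d, ConjClasses.mk_eq_mk_iff_isConj, isConj_iff]
  have huC : u ∈ C := by
    rw [hC, mem_centralizer_singleton_iff]
    exact ((mem_centralizer_iff.mp hu.2) x (mem_zpowers x)).symm
  refine ⟨⟨u, huC⟩, Subtype.ext ?_⟩
  exact hu2

theorem ker_index_ne_three {G : Type*} [Group G] [Finite G] (P : Sylow 3 G)
    (h : ((P : Subgroup G).normalizerMonoidHom).ker.index = 3) : False := by
  set M := normalizer ((P : Subgroup G) : Set G) with hM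
  set K := ((P : Subgroup G).normalizerMonoidHom).ker with hK
  have hKc : ∀ m : M, m ∈ K ↔ (m : G) ∈ centralizer ((P : Subgroup G) : Set G) := by
    intro m
    rw [hK, normalizerMonoidHom_ker]; rfl
  have hcyc : IsCyclic (M ⧸ K) := by
    have : Fact (Nat.Prime 3) := ⟨Nat.prime_three⟩
    apply isCyclic_of_prime_card (p := 3)
    rw [← Subgroup.index_eq_card]; exact h
  let f : (P : Subgroup G) →* M ⧸ K := (QuotientGroup.mk' K).comp (inclusion le_normalizer)
  have hf : f.ker ≤ center (P : Subgroup G) := by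
    intro x hx
    rw [MonoidHom.mem_ker] at hx
    have h1 : (inclusion (le_normalizer (H := (P : Subgroup G))) x) ∈ K := by
      rw [← QuotientGroup.ker_mk' K, MonoidHom.mem_ker]; exact hx
    rw [hKc] at h1
    rw [mem_center_iff]
    intro g
    apply Subtype.ext
    exact (mem_centralizer_iff.mp h1) g g.2
  have hcomm : ∀ a b : (P : Subgroup G), a * b = b * a := fun a b => commutative_of_cyclic_center_quotient f hf a b
  have hPK : (P : Subgroup G).subgroupOf M ≤ K := by
    intro m hm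
    rw [hKc, mem_centralizer_iff]
    intro y hy
    exact congrArg Subtype.val (hcomm ⟨y, hy⟩ ⟨m, hm⟩)
  have h2 : K.index ∣ ((P : Subgroup G).subgroupOf M).index := index_dvd_of_le hPK
  rw [h] at h2
  have h3 : (P : Subgroup G).relIndex M ∣ (P : Subgroup G).index := relIndex_dvd_index_of_le le_normalizer
  have : Fact (Nat.Prime 3) := ⟨Nat.prime_three⟩
  exact P.not_dvd_index (h2.trans h3)

theorem card_pClasses_le_odd {G : Type*} [Group G] [Finite G] (hG : Odd (Nat.card G)) {p : ℕ} [hpf : Fact p.Prime]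
    (hp2 : p ≠ 2) (P : Sylow p G)
    (h : ¬ normalizer ((P : Subgroup G) : Set G) ≤ centralizer ((P : Subgroup G) : Set G)) :
    2 * Nat.card {c : ConjClasses G // ∀ x ∈ c.carrier, ∃ k : ℕ, orderOf x = p ^ k} ≤
      Nat.card (P : Subgroup G) := by
  classical
  let act : MulAction (normalizer ((P : Subgroup G) : Set G)) (P : Subgroup G) :=
    MulAction.compHom _ (P : Subgroup G).normalizerMonoidHom
  set φ := (P : Subgroup G).normalizerMonoidHom with hφ
  have hker : φ.ker ≠ ⊤ := by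
    intro h1
    apply h
    intro x hx
    have h3 : (⟨x, hx⟩ : normalizer ((P : Subgroup G) : Set G)) ∈ φ.ker := by rw [h1]; trivial
    rw [hφ, normalizerMonoidHom_ker] at h3
    exact h3
  have hModd : Odd (Nat.card (normalizer ((P : Subgroup G) : Set G))) :=
    Odd.of_dvd_nat hG (Subgroup.card_subgroup_dvd_card _)
  have hfix : ∀ m, m ∉ φ.ker → p * Nat.card {x : (P : Subgroup G) // φ m x = x} ≤ Nat.card (P : Subgroup G) := by
    intro m hm
    exact card_fixed_le P.2 (φ m) (fun h2 => hm (MonoidHom.mem_ker.mpr h2))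
  have horb : 2 * Nat.card (Quotient (MulAction.orbitRel (normalizer ((P : Subgroup G) : Set G)) (P : Subgroup G))) ≤
      Nat.card (P : Subgroup G) := by
    set n := Nat.card (Quotient (MulAction.orbitRel (normalizer ((P : Subgroup G) : Set G)) (P : Subgroup G))) with hn
    by_cases hp3 : p = 3
    · subst hp3
      have h5 : 5 * Nat.card φ.ker ≤ Nat.card (normalizer ((P : Subgroup G) : Set G)) := by
        have h1 : φ.ker.index ≠ 1 := fun h => hker (Subgroup.index_eq_one.mp h)
        have h2 : Odd φ.ker.index := Odd.of_dvd_nat hModd (Subgroup.index_dvd_card _)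
        have h3 : φ.ker.index ≠ 3 := fun h => ker_index_ne_three P h
        have h4 : 5 ≤ φ.ker.index := by
          obtain ⟨k, hk⟩ := h2
          omega
        rw [← φ.ker.card_mul_index, mul_comm]
        exact Nat.mul_le_mul_left _ h4
      have h6 := orbit_bound_gen φ (fun m x => rfl) 5 3 (by norm_num) h5 hfix
      rw [← hn] at h6
      omega
    · have hp5 : 5 ≤ p := by
        have h1 := hpf.out.two_le
        rcases Nat.lt_or_ge p 5 with h2 | h2
        · have : p = 4 := by omega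
          subst this
          exact absurd hpf.out (by norm_num)
        · exact h2
      have h6 := orbit_bound_gen φ (fun m x => rfl) 3 p hpf.out.one_lt.le (Odd.three_le_index hModd hker) hfix
      rw [← hn] at h6
      have h7 : (3 * p) * (2 * n) ≤ (3 * p) * Nat.card (P : Subgroup G) := by
        calc (3 * p) * (2 * n) = 2 * (3 * p * n) := by ring
          _ ≤ 2 * ((3 + (p - 1)) * Nat.card (P : Subgroup G)) := Nat.mul_le_mul_left _ h6
          _ = (2 * (3 + (p - 1))) * Nat.card (P : Subgroup G) := by ring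
          _ ≤ _ := Nat.mul_le_mul_right _ (by omega)
      exact Nat.le_of_mul_le_mul_left h7 (by omega)
  refine le_trans (Nat.mul_le_mul_left _ ?_) horb
  have hex : ∀ c : {c : ConjClasses G // ∀ x ∈ c.carrier, ∃ k : ℕ, orderOf x = p ^ k},
      ∃ x : (P : Subgroup G), ConjClasses.mk (x : G) = c.1 := by
    rintro ⟨c, hc⟩
    obtain ⟨x, rfl⟩ := ConjClasses.exists_rep c
    obtain ⟨g, hg⟩ := exists_conj_mem_sylow P x (hc x ConjClasses.mem_carrier_mk)
    refine ⟨⟨_, hg⟩, ?_⟩
    rw [ConjClasses.mk_eq_mk_iff_isConj]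
    exact (isConj_iff.mpr ⟨g, rfl⟩).symm
  choose f hf using hex
  apply Nat.card_le_card_of_injective
    (fun c => (Quotient.mk (MulAction.orbitRel (normalizer ((P : Subgroup G) : Set G)) (P : Subgroup G)) (f c)))
  intro c d hcd
  have h1 := Quotient.exact hcd
  obtain ⟨n, hn⟩ := h1
  apply Subtype.ext
  rw [← hf c, ← hf d, ConjClasses.mk_eq_mk_iff_isConj]
  rw [← hn]
  exact (isConj_iff.mpr ⟨(n : G), rfl⟩).symm

end Cfsg.Agent.H22.PiClasses
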