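import Cfsg.Statements.S3768
import Cfsg.Agent.H9_FrobKer
import Cfsg.Agent.H23_FrobKer
import Cfsg.Agent.H1_Basic
import Cfsg.Agent.H22_Basic

set_option autoImplicit false
open Cfsg

namespace Cfsg.Agent.S3768

open Subgroup
open scoped Pointwise

/-- criterion for Frobenius complement from a normal complement with free action -/
theorem frob_of_free {X : Type*} [Group X] [Finite X] (K H : Subgroup X) [K.Normal] (hc : IsComplement' K H)
    (hK : K ≠ ⊥) (hH : H ≠ ⊥) (hfree : ∀ h ∈ H, h ≠ 1 → ∀ k ∈ K, k * h = h * k → k = 1) :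
    Cfsg.IsFrobeniusComplement H ∧ Cfsg.frobeniusKernel H = (K : Set X) := by
  have hinf : K ⊓ H = ⊥ := disjoint_iff.mp hc.disjoint
  have h1 : Cfsg.IsFrobeniusComplement H := by
    refine ⟨hH, ?_, ?_⟩
    · rintro rfl
      rw [inf_top_eq] at hinf
      exact hK hinf
    · intro g hg
      rw [eq_bot_iff]
      rintro x ⟨hx1, hx2⟩
      rw [mem_bot]
      by_contra hx
      apply hg
      have hgt : g ∈ K ⊔ H := by rw [hc.sup_eq_top]; trivial
      rw [← SetLike.mem_coe, Subgroup.normal_mul] at hgt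
      obtain ⟨k, hk, q, hq, e⟩ := hgt
      have h2 := H1.Basic.mem_conj.mp hx2
      set z := q * (g⁻¹ * x * g) * q⁻¹ with hz
      have hzH : z ∈ H := mul_mem (mul_mem hq h2) (inv_mem hq)
      have hxz : x = k * z * k⁻¹ := by
        rw [hz]
        have : g = k * q := e.symm
        rw [this]; group
      have h3 : x * z⁻¹ ∈ K ⊓ H := by
        refine ⟨?_, (by show x * z⁻¹ ∈ H; exact mul_mem hx1 (inv_mem hzH))⟩
        have h4 : x * z⁻¹ = k * (z * k⁻¹ * z⁻¹) := by rw [hxz]; group
        show x * z⁻¹ ∈ K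
        rw [h4]
        have hKn : K.Normal := inferInstance
        exact mul_mem hk (hKn.conj_mem _ (inv_mem hk) z)
      rw [hinf, mem_bot] at h3
      have h4 : x = z := by
        calc x = x * z⁻¹ * z := by group
          _ = z := by rw [h3, one_mul]
      rw [← h4] at hxz
      have h5 : k * x = x * k := by
        calc k * x = (k * x * k⁻¹) * k := by group
          _ = x * k := by rw [← hxz]
      have h6 := hfree x hx1 hx k hk h5
      rw [h6] at e
      rw [← e]
      simpa using hq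
  exact ⟨h1, H23.FrobKer.kernel_eq K H hc h1⟩

/-- Let G be a finite Frobenius group with Frobenius complement R and Frobenius kernel K (the identity together with the elements in no conjugate of R), and let N be a normal subgroup of G not containing K. Then G/N is a Frobenius group with Frobenius complement RN/N whose Frobenius kernel is the image of K. -/
theorem result {G : Type*} [Group G] [Finite G] (R : Subgroup G) (hR : Cfsg.IsFrobeniusComplement R) (N : Subgroup G) [N.Normal] (hKN : ¬ Cfsg.frobeniusKernel R ⊆ N) : Cfsg.IsFrobeniusComplement (R.map (QuotientGroup.mk' N)) ∧ Cfsg.frobeniusKernel (R.map (QuotientGroup.mk' N)) = QuotientGroup.mk' N '' Cfsg.frobeniusKernel R := by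
  obtain ⟨K, hK, hKn, hc⟩ := H9.FrobKer.frobenius R hR
  rw [← hK] at hKN
  have hKN' : ¬ K ≤ N := hKN
  have hinf : K ⊓ R = ⊥ := disjoint_iff.mp hc.disjoint
  -- free action
  have hfree : ∀ h ∈ R, h ≠ 1 → ∀ k ∈ K, k * h = h * k → k = 1 := by
    intro h hh hh1 k hk hkh
    by_contra hk1
    have hkR : k ∉ R := by
      intro hkR
      have : k ∈ K ⊓ R := ⟨hk, hkR⟩
      rw [hinf, mem_bot] at this
      exact hk1 this
    have h2 := hR.2.2 k hkR
    have h3 : h ∈ R ⊓ (MulAut.conj k • R) := by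
      refine ⟨hh, H1.Basic.mem_conj.mpr ?_⟩
      have : k⁻¹ * h * k = h := by rw [mul_assoc, ← hkh]; group
      rw [this]; exact hh
    rw [h2, mem_bot] at h3
    exact hh1 h3
  -- conjugation maps are bijective
  have hsurj : ∀ h ∈ R, h ≠ 1 → ∀ c ∈ K, ∃ k ∈ K, h * k * h⁻¹ * k⁻¹ = c := by
    intro h hh hh1 c hc'
    let f : K → K := fun k => ⟨h * k * h⁻¹ * (k : G)⁻¹, mul_mem (hKn.conj_mem _ k.2 h) (inv_mem k.2)⟩
    have hinj : Function.Injective f := by
      intro a b hab
      have e : h * (a : G) * h⁻¹ * (a : G)⁻¹ = h * b * h⁻¹ * (b : G)⁻¹ := congrArg Subtype.val hab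
      have e2 : ((b : G)⁻¹ * a) * h⁻¹ = h⁻¹ * ((b : G)⁻¹ * a) := by
        calc (b : G)⁻¹ * a * h⁻¹ = (b : G)⁻¹ * h⁻¹ * (h * a * h⁻¹ * (a : G)⁻¹) * a := by group
          _ = (b : G)⁻¹ * h⁻¹ * (h * b * h⁻¹ * (b : G)⁻¹) * a := by rw [e]
          _ = h⁻¹ * ((b : G)⁻¹ * a) := by group
      have e3 := hfree h⁻¹ (inv_mem hh) (inv_ne_one.mpr hh1) _ (mul_mem (inv_mem b.2) a.2) e2
      apply Subtype.ext
      exact (inv_mul_eq_one.mp e3).symm
    obtain ⟨k, hk⟩ := (Finite.injective_iff_surjective.mp hinj) ⟨c, hc'⟩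
    exact ⟨k, k.2, congrArg Subtype.val hk⟩
  -- N ≤ K
  have hNK : N ≤ K := by
    intro n hn
    by_contra hnK
    apply hKN'
    have hnker : n ∉ Cfsg.frobeniusKernel R := by rw [← hK]; exact hnK
    have hn1 : ¬ (n = 1 ∨ ∀ g : G, n ∉ MulAut.conj g • R) := hnker
    push Not at hn1
    obtain ⟨hne, g, hg⟩ := hn1
    rw [H1.Basic.mem_conj] at hg
    have hNn : N.Normal := inferInstance
    set h := g⁻¹ * n * g with hh
    have hhN : h ∈ N := by
      have := hNn.conj_mem n hn g⁻¹
      rwa [inv_inv] at this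
    have hh1 : h ≠ 1 := by
      intro h1
      apply hne
      have : n = g * h * g⁻¹ := by rw [hh]; group
      rw [this, h1]; group
    intro c hc'
    obtain ⟨k, hk, rfl⟩ := hsurj h hg hh1 c hc'
    have e : h * k * h⁻¹ * k⁻¹ = h * (k * h⁻¹ * k⁻¹) := by group
    rw [e]
    exact mul_mem hhN (hNn.conj_mem _ (inv_mem hhN) k)
  set π := QuotientGroup.mk' N with hπdef
  have hπs : Function.Surjective π := QuotientGroup.mk'_surjective N
  have hπk : π.ker = N := QuotientGroup.ker_mk' N
  have hπ1 : ∀ n : G, π n = 1 ↔ n ∈ N := by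
    intro n
    rw [← MonoidHom.mem_ker, hπk]
  have hKbn : (K.map π).Normal := hKn.map π hπs
  have hmemK : ∀ g : G, π g ∈ K.map π ↔ g ∈ K := by
    intro g
    rw [← mem_comap, comap_map_eq, hπk, sup_eq_left.mpr hNK]
  have hcb : IsComplement' (K.map π) (R.map π) := by
    apply isComplement'_of_card_mul_and_disjoint
    · have h1 := H1.Basic.card_map_of_inf_ker_eq_bot π R (by
        rw [hπk, eq_bot_iff, ← hinf, inf_comm]
        exact inf_le_inf_right R hNK)
      have h2 : (K.map π).index = K.index := index_map_eq K hπs (by rw [hπk]; exact hNK)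
      rw [h1, ← hc.symm.index_eq_card, ← h2]
      exact (K.map π).card_mul_index
    · rw [disjoint_iff, eq_bot_iff]
      rintro z ⟨hz1, r, hr, rfl⟩
      have h1 : r ∈ K ⊓ R := ⟨(hmemK r).mp hz1, hr⟩
      rw [hinf, mem_bot] at h1
      rw [mem_bot, h1, map_one]
  have hres := frob_of_free (K.map π) (R.map π) hcb (by
      intro h1
      apply hKN'
      intro k hk
      have : π k ∈ K.map π := ⟨k, hk, rfl⟩
      rw [h1, mem_bot, hπ1] at this
      exact this) (by
      intro h1
      apply hR.1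
      rw [eq_bot_iff]
      intro r hr
      have : π r ∈ R.map π := ⟨r, hr, rfl⟩
      rw [h1, mem_bot, hπ1] at this
      have h2 : r ∈ K ⊓ R := ⟨hNK this, hr⟩
      rwa [hinf] at h2) (by
      rintro _ ⟨h, hh, rfl⟩ hh1 _ ⟨k, hk, rfl⟩ hcomm
      have hh1' : h ≠ 1 := by
        rintro rfl
        exact hh1 (map_one π)
      -- h k h⁻¹ k⁻¹ ∈ N
      have h1 : h * k * h⁻¹ * k⁻¹ ∈ N := by
        rw [← hπ1, map_mul, map_mul, map_mul, map_inv, map_inv, ← hcomm]; group
      -- f restricted to N is onto N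
      let f : N → N := fun k => ⟨h * k * h⁻¹ * (k : G)⁻¹, by
        have hNn : N.Normal := inferInstance
        exact mul_mem (hNn.conj_mem _ k.2 h) (inv_mem k.2)⟩
      have hdet : ∀ a ∈ K, ∀ b ∈ K, h * a * h⁻¹ * a⁻¹ = h * b * h⁻¹ * b⁻¹ → a = b := by
        intro a ha b hb e
        have e2 : (b⁻¹ * a) * h⁻¹ = h⁻¹ * (b⁻¹ * a) := by
          calc b⁻¹ * a * h⁻¹ = b⁻¹ * h⁻¹ * (h * a * h⁻¹ * a⁻¹) * a := by group
            _ = b⁻¹ * h⁻¹ * (h * b * h⁻¹ * b⁻¹) * a := by rw [e]
            _ = h⁻¹ * (b⁻¹ * a) := by group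
        have e3 := hfree h⁻¹ (inv_mem hh) (inv_ne_one.mpr hh1') _ (mul_mem (inv_mem hb) ha) e2
        exact (inv_mul_eq_one.mp e3).symm
      have hinj : Function.Injective f := by
        intro a b hab
        apply Subtype.ext
        exact hdet a (hNK a.2) b (hNK b.2) (congrArg Subtype.val hab)
      obtain ⟨n, hn⟩ := (Finite.injective_iff_surjective.mp hinj) ⟨_, h1⟩
      have h2 := hdet (n : G) (hNK n.2) k hk (congrArg Subtype.val hn)
      rw [hπ1, ← h2]
      exact n.2)
  refine ⟨hres.1, ?_⟩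
  rw [hres.2, ← hK]
  rfl

end Cfsg.Agent.S3768
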