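import Mathlib
import Cfsg.Agent.H22_Basic
import Cfsg.Agent.H1_Hall
import Cfsg.Agent.H1_Nilp
import Cfsg.Agent.H1_Fixed
import Cfsg.Agent.H12_CN3
import Cfsg.Agent.S3768

/-!
Groups in which the element orders are separated by a set of primes (disconnected prime graph).
-/

set_option autoImplicit false

namespace Cfsg.Agent.H22.PrimeGraph

open Subgroup

/-- all prime divisors of `n` lie in `A` -/
def PiNum (A : Set ℕ) (n : ℕ) : Prop := ∀ r : ℕ, r.Prime → r ∣ n → r ∈ A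

/-- no element has order divisible by a prime in `A` and one outside -/
def Separated (A : Set ℕ) (G : Type*) [Group G] : Prop :=
  ∀ g : G, ∀ a ∈ A, ∀ b ∉ A, a.Prime → b.Prime → a ∣ orderOf g → ¬ b ∣ orderOf g

theorem PiNum.mul {A : Set ℕ} {m n : ℕ} (hm : PiNum A m) (hn : PiNum A n) : PiNum A (m * n) := by
  intro r hr h
  rcases hr.dvd_mul.mp h with h | h
  · exact hm r hr h
  · exact hn r hr h

theorem PiNum.dvd {A : Set ℕ} {m n : ℕ} (hm : PiNum A m) (h : n ∣ m) : PiNum A n :=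
  fun r hr hrn => hm r hr (hrn.trans h)

theorem PiNum.one (A : Set ℕ) : PiNum A 1 := fun _ hr h => absurd (Nat.dvd_one.mp h) hr.ne_one

theorem PiNum.pow {A : Set ℕ} {m : ℕ} (hm : PiNum A m) (k : ℕ) : PiNum A (m ^ k) := by
  induction k with
  | zero => rw [pow_zero]; exact PiNum.one A
  | succ k ih => rw [pow_succ]; exact ih.mul hm

theorem PiNum.prime {A : Set ℕ} {p : ℕ} (hp : p.Prime) (h : p ∈ A) : PiNum A p :=
  fun r hr hrp => by rw [(Nat.prime_dvd_prime_iff_eq hr hp).mp hrp]; exact h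

theorem PiNum.coprime {A : Set ℕ} {m n : ℕ} (hm : PiNum A m) (hn : PiNum Aᶜ n) : m.Coprime n := by
  rw [Nat.coprime_iff_gcd_eq_one]
  by_contra hne
  obtain ⟨s, hs, hsd⟩ := Nat.exists_prime_and_dvd hne
  exact hn s hs (hsd.trans (Nat.gcd_dvd_right _ _)) (hm s hs (hsd.trans (Nat.gcd_dvd_left _ _)))

theorem Separated.compl {A : Set ℕ} {G : Type*} [Group G] (h : Separated A G) : Separated Aᶜ G := by
  intro g a ha b hb ha' hb' h1 h2
  exact h g b (not_not.mp hb) a ha hb' ha' h2 h1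

theorem Separated.of_injective {A : Set ℕ} {G H : Type*} [Group G] [Group H] (h : Separated A G) (f : H →* G)
    (hf : Function.Injective f) : Separated A H := by
  intro g a ha b hb ha' hb' h1 h2
  rw [← orderOf_injective f hf g] at h1 h2
  exact h (f g) a ha b hb ha' hb' h1 h2

theorem Separated.comm {A : Set ℕ} {G : Type*} [Group G] (h : Separated A G) {x y : G} (hxy : x * y = y * x)
    (hx : PiNum A (orderOf x)) (hy : PiNum Aᶜ (orderOf y)) : x = 1 ∨ y = 1 := by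
  by_contra hcon
  push Not at hcon
  obtain ⟨hx1, hy1⟩ := hcon
  have hx1 : orderOf x ≠ 1 := fun h => hx1 (orderOf_eq_one_iff.mp h)
  have hy1 : orderOf y ≠ 1 := fun h => hy1 (orderOf_eq_one_iff.mp h)
  obtain ⟨a, ha, hax⟩ := Nat.exists_prime_and_dvd hx1
  obtain ⟨b, hb, hby⟩ := Nat.exists_prime_and_dvd hy1
  have h1 : orderOf (x * y) = orderOf x * orderOf y :=
    Commute.orderOf_mul_eq_mul_orderOf_of_coprime hxy (hx.coprime hy)
  exact h (x * y) a (hx a ha hax) b (hy b hb hby) ha hb (by rw [h1]; exact Dvd.dvd.mul_right hax _)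
    (by rw [h1]; exact Dvd.dvd.mul_left hby _)

theorem piNum_orderOf {A : Set ℕ} {G : Type*} [Group G] [Finite G] {H : Subgroup G} (h : PiNum A (Nat.card H))
    {x : G} (hx : x ∈ H) : PiNum A (orderOf x) := h.dvd (Subgroup.orderOf_dvd_natCard H hx)

theorem card_sup_dvd {G : Type*} [Group G] [Finite G] (H M : Subgroup G) [H.Normal] :
    Nat.card (H ⊔ M : Subgroup G) ∣ Nat.card H * Nat.card M := by
  have h1 : H.relIndex (H ⊔ M) = H.relIndex M := by rw [sup_comm]; exact Subgroup.relIndex_sup_right _ _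
  have h2 : Nat.card H * H.relIndex (H ⊔ M) = Nat.card (H ⊔ M : Subgroup G) :=
    H22.Basic.card_mul_relIndex le_sup_left
  rw [← h2, h1]
  exact Nat.mul_dvd_mul_left _ (Subgroup.relIndex_dvd_card _ _)

theorem exists_core (A : Set ℕ) (G : Type*) [Group G] [Finite G] : ∃ H : Subgroup G, H.Normal ∧ PiNum A (Nat.card H) ∧
    ∀ M : Subgroup G, M.Normal → PiNum A (Nat.card M) → M ≤ H := by
  obtain ⟨H, ⟨h1, h2⟩, hmax⟩ := Set.Finite.exists_maximalFor (fun Q : Subgroup G => Nat.card Q)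
    {H : Subgroup G | H.Normal ∧ PiNum A (Nat.card H)} (Set.toFinite _)
    ⟨⊥, inferInstance, by rw [Subgroup.card_bot]; exact PiNum.one A⟩
  refine ⟨H, h1, h2, ?_⟩
  intro M hM hMA
  have h3 : (H ⊔ M) ∈ {H : Subgroup G | H.Normal ∧ PiNum A (Nat.card H)} := by
    refine ⟨inferInstance, ?_⟩
    exact (h2.mul hMA).dvd (card_sup_dvd H M)
  have h4 := hmax h3 (H22.Basic.card_le_of_le le_sup_left)
  have h5 : H = H ⊔ M := H22.Basic.eq_of_le_of_card_le le_sup_left h4
  rw [h5]; exact le_sup_right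

/-- minimal normal subgroups of solvable groups are `p`-groups -/
theorem exists_minimal_pgroup {G : Type*} [Group G] [Finite G] [Group.IsSolvable G] {H : Subgroup G} (hH : H.Normal)
    (hb : H ≠ ⊥) : ∃ (N : Subgroup G) (p : ℕ), N ≤ H ∧ N.Normal ∧ N ≠ ⊥ ∧ p.Prime ∧ IsMulCommutative N ∧
      (∀ x ∈ N, x ^ p = 1) ∧ PiNum {p} (Nat.card N) ∧ p ∣ Nat.card N := by
  obtain ⟨N, hNH, hN, hNb, hmin⟩ := H1.Hall.exists_minimal_normal hH hb
  obtain ⟨hc, p, hp, hx⟩ := H1.Hall.minimal_normal_elementary N hNb hmin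
  have : Fact p.Prime := ⟨hp⟩
  obtain ⟨n, hn⟩ := IsPGroup.iff_card.mp (H1.Hall.isPGroup_of_pow_eq_one hx)
  refine ⟨N, p, hNH, hN, hNb, hp, hc, hx, ?_, ?_⟩
  · rw [hn]; exact (PiNum.prime hp (Set.mem_singleton p)).pow n
  · rw [hn]
    apply dvd_pow_self
    rintro rfl
    rw [pow_zero] at hn
    exact hNb (Subgroup.card_eq_one.mp hn)

theorem comm_le_centralizer_of_cyclic {G : Type*} [Group G] [Finite G] (F : Subgroup G) [hF : F.Normal] (hc : IsCyclic F) :
    ⁅(⊤ : Subgroup G), (⊤ : Subgroup G)⁆ ≤ centralizer (F : Set G) := by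
  obtain ⟨x, hx⟩ := hc.exists_generator
  have hxp : ∀ f ∈ F, ∃ k : ℤ, (x : G) ^ k = f := by
    intro f hf
    obtain ⟨k, hk⟩ := mem_zpowers_iff.mp (hx ⟨f, hf⟩)
    exact ⟨k, congrArg Subtype.val hk⟩
  -- conj maps commute
  have key : ∀ g h f : G, f ∈ F → (g * h) * f * (g * h)⁻¹ = (h * g) * f * (h * g)⁻¹ := by
    intro g h f hf
    obtain ⟨k, rfl⟩ := hxp f hf
    obtain ⟨m, hm⟩ := hxp (g * x * g⁻¹) (hF.conj_mem _ x.2 _)
    obtain ⟨n, hn⟩ := hxp (h * x * h⁻¹) (hF.conj_mem _ x.2 _)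
    have e1 : ∀ (u : G) (i : ℤ), u * (x : G) ^ i * u⁻¹ = (u * x * u⁻¹) ^ i := by
      intro u i; rw [conj_zpow]
    have e2 : g * (h * (x : G) ^ k * h⁻¹) * g⁻¹ = h * (g * (x : G) ^ k * g⁻¹) * h⁻¹ := by
      rw [e1 h, ← hn, ← zpow_mul, e1 g, ← hm, ← zpow_mul, e1 g, ← hm, ← zpow_mul, e1 h, ← hn, ← zpow_mul]
      congr 1; ring
    calc (g * h) * (x : G) ^ k * (g * h)⁻¹ = g * (h * (x : G) ^ k * h⁻¹) * g⁻¹ := by group
      _ = _ := e2
      _ = _ := by group
  rw [Subgroup.commutator_le]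
  intro g _ h _
  rw [mem_centralizer_iff]
  intro f hf
  have h1 := key g h (h⁻¹ * g⁻¹ * f * (h⁻¹ * g⁻¹)⁻¹) (hF.conj_mem _ hf _)
  have h2 : g * h * (h⁻¹ * g⁻¹ * f * (h⁻¹ * g⁻¹)⁻¹) * (g * h)⁻¹ = f := by group
  rw [h2] at h1
  -- h g (h⁻¹ g⁻¹ f g h) g⁻¹ h⁻¹ = f
  have h3 := key g h (g⁻¹ * h⁻¹ * f * (g⁻¹ * h⁻¹)⁻¹) (hF.conj_mem _ hf _)
  have h4 : h * g * (g⁻¹ * h⁻¹ * f * (g⁻¹ * h⁻¹)⁻¹) * (h * g)⁻¹ = f := by group
  rw [h4] at h3
  rw [commutatorElement_def]
  calc f * (g * h * g⁻¹ * h⁻¹) = (g * h * (g⁻¹ * h⁻¹ * f * (g⁻¹ * h⁻¹)⁻¹) * (g * h)⁻¹) * (g * h * g⁻¹ * h⁻¹) := by rw [h3]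
    _ = g * h * g⁻¹ * h⁻¹ * f := by group

/-- the second layer: `X` solvable with no normal `A`-subgroup, `K` its largest normal `A'`-subgroup,
with cyclic Sylow subgroups: `X / K` is abelian -/
theorem second_layer {A : Set ℕ} {X : Type*} [Group X] [Finite X] [hs : Group.IsSolvable X]
    (hcore : ∀ M : Subgroup X, M.Normal → PiNum A (Nat.card M) → M = ⊥)
    (K : Subgroup X) [hKn : K.Normal] (hKA : PiNum Aᶜ (Nat.card K))
    (hKmax : ∀ M : Subgroup X, M.Normal → PiNum Aᶜ (Nat.card M) → M ≤ K) (hz : IsZGroup K) :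
    _root_.commutator X ≤ K ∧ PiNum A K.index := by
  have hFn : (Cfsg.fittingSubgroup X).Normal := H1.Nilp.fitting_normal
  set F := Cfsg.fittingSubgroup X with hF
  have hFnil : Group.IsNilpotent F := H1.Nilp.fitting_nilpotent
  have hFA : PiNum Aᶜ (Nat.card F) := by
    intro r hr hrF hrA
    have : Fact r.Prime := ⟨hr⟩
    let S : Sylow r F := default
    have hSn : (S : Subgroup F).Normal := inferInstance
    have hSc : (S : Subgroup F).Characteristic := S.characteristic_of_normal hSn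
    have h1 : ((S : Subgroup F).map F.subtype).Normal := inferInstance
    have h2 : Nat.card ((S : Subgroup F).map F.subtype) = Nat.card (S : Subgroup F) :=
      Subgroup.card_map_of_injective F.subtype_injective
    obtain ⟨k, hk⟩ := S.2.exists_card_eq
    have h3 := hcore _ h1 (by rw [h2, hk]; exact (PiNum.prime hr hrA).pow k)
    rw [h3, Subgroup.card_bot] at h2
    have h4 : r ∣ Nat.card (S : Subgroup F) := S.dvd_card_of_dvd_card hrF
    rw [← h2] at h4
    exact hr.one_lt.ne' (Nat.dvd_one.mp h4)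
  have hFK : F ≤ K := hKmax F hFn hFA
  have hFz : IsZGroup F := IsZGroup.of_injective (f := inclusion hFK) (inclusion_injective hFK)
  have hFc : IsCyclic F := inferInstance
  have h1 : _root_.commutator X ≤ F := by
    rw [_root_.commutator_def]
    exact (comm_le_centralizer_of_cyclic F hFc).trans H1.Hall.centralizer_fitting_le
  have h2 : _root_.commutator X ≤ K := h1.trans hFK
  refine ⟨h2, ?_⟩
  intro r hr hrK
  by_contra hrA
  have : Fact r.Prime := ⟨hr⟩
  let S : Sylow r (X ⧸ K) := default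
  have hcomm : ∀ a b : X ⧸ K, a * b = b * a := (Subgroup.Normal.quotient_commutative_iff_commutator_le.mpr h2).is_comm.comm
  have hSn : (S : Subgroup (X ⧸ K)).Normal := by
    constructor
    intro n hn g
    rw [hcomm g n, mul_inv_cancel_right]; exact hn
  have h3 := H1.Hall.card_comap_mk K (S : Subgroup (X ⧸ K))
  obtain ⟨k, hk⟩ := S.2.exists_card_eq
  have h4 := hKmax ((S : Subgroup (X ⧸ K)).comap (QuotientGroup.mk' K)) inferInstance (by
    rw [h3, hk]
    exact ((PiNum.prime hr hrA).pow k).mul hKA)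
  have h5 := card_dvd_of_le h4
  rw [h3] at h5
  have h6 : Nat.card (S : Subgroup (X ⧸ K)) ∣ 1 := by
    have h7 : 0 < Nat.card K := Nat.card_pos
    exact Nat.dvd_of_mul_dvd_mul_right h7 (by rw [one_mul]; exact h5)
  have h7 : r ∣ Nat.card (S : Subgroup (X ⧸ K)) := S.dvd_card_of_dvd_card (by rw [← Subgroup.index_eq_card]; exact hrK)
  exact hr.one_lt.ne' (Nat.dvd_one.mp (h7.trans h6))

end Cfsg.Agent.H22.PrimeGraph
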