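import Mathlib
import Cfsg.Agent.H22_Basic
import Cfsg.Agent.H1_Basic
import Cfsg.Agent.H23_ClassSize2

/-!
Relative maximal centralizers (Bryce--Cossey style): `N ⊴ G`, `C_G(x)` maximal for `x ∈ N ∖ Z(N)`.
-/

set_option autoImplicit false

namespace Cfsg.Agent.H22.RelMax

open Subgroup
open scoped commutatorElement Pointwise

variable {G : Type*} [Group G] [Finite G]

/-- if all prime-power-order powers of `a` lie in `S` then `a ∈ S` -/
theorem mem_of_primary (S : Subgroup G) (a : G)
    (h : ∀ k : ℕ, ∀ r : ℕ, r.Prime → (∃ j : ℕ, (a ^ k) ^ (r ^ j) = 1) → a ^ k ∈ S) : a ∈ S := by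
  set n := orderOf a with hn
  have hn0 : n ≠ 0 := (orderOf_pos a).ne'
  have key : ∀ m : ℕ, m ∣ n → a ^ (n / m) ∈ S := by
    intro m
    induction m using Nat.recOnPrimeCoprime with
    | zero => intro h0; exact absurd (Nat.eq_zero_of_zero_dvd h0) hn0
    | prime_pow p j hp =>
      intro hd
      apply h _ p hp
      refine ⟨j, ?_⟩
      rw [← pow_mul, Nat.div_mul_cancel hd, hn]
      exact pow_orderOf_eq_one a
    | coprime m1 m2 hm1 hm2 hco ih1 ih2 =>
      intro hd
      have h1 := ih1 (dvd_trans (dvd_mul_right _ _) hd)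
      have h2 := ih2 (dvd_trans (dvd_mul_left _ _) hd)
      obtain ⟨t, ht⟩ := hd
      have hm1p : 0 < m1 := by omega
      have hm2p : 0 < m2 := by omega
      have e1 : n / m1 = m2 * t := by rw [ht, mul_assoc]; exact Nat.mul_div_cancel_left _ hm1p
      have e2 : n / m2 = m1 * t := by
        rw [ht, mul_comm m1 m2, mul_assoc]; exact Nat.mul_div_cancel_left _ hm2p
      have e3 : n / (m1 * m2) = t := by rw [ht]; exact Nat.mul_div_cancel_left _ (Nat.mul_pos hm1p hm2p)
      rw [e1] at h1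
      rw [e2] at h2
      rw [e3]
      have hb := Nat.gcd_eq_gcd_ab m1 m2
      rw [Nat.Coprime.gcd_eq_one hco] at hb
      have e4 : a ^ t = (a ^ (m1 * t)) ^ (Nat.gcdA m1 m2) * (a ^ (m2 * t)) ^ (Nat.gcdB m1 m2) := by
        rw [← zpow_natCast a (m1 * t), ← zpow_natCast a (m2 * t), ← zpow_mul, ← zpow_mul, ← zpow_add,
          ← zpow_natCast a t]
        congr 1
        push_cast at hb ⊢
        linear_combination (t : ℤ) * hb
      rw [e4]
      exact mul_mem (zpow_mem h2 _) (zpow_mem h1 _)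
  have h1 := key n dvd_rfl
  rwa [Nat.div_self (Nat.pos_of_ne_zero hn0), pow_one] at h1

theorem exists_primary {S : Subgroup G} {a : G} (ha : a ∉ S) :
    ∃ k r : ℕ, r.Prime ∧ (∃ j : ℕ, (a ^ k) ^ (r ^ j) = 1) ∧ a ^ k ∉ S := by
  by_contra hcon
  push Not at hcon
  exact ha (mem_of_primary S a (fun k r hr hj => hcon k r hr hj))

variable (N : Subgroup G) [hNn : N.Normal]

/-- the hypothesis -/
def Hyp : Prop := ∀ x : G, x ∈ N → x ∉ centralizer (N : Set G) → IsCoatom (centralizer ({x} : Set G))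

variable {N}

theorem not_le_of_not_mem {x : G} (hx : x ∉ centralizer (N : Set G)) : ¬ N ≤ centralizer ({x} : Set G) := by
  intro h
  apply hx
  rw [mem_centralizer_iff]
  intro n hn
  exact mem_centralizer_singleton_iff.mp (h hn)

theorem sup_eq_top (h : Hyp N) {x : G} (hxN : x ∈ N) (hx : x ∉ centralizer (N : Set G)) :
    N ⊔ centralizer ({x} : Set G) = ⊤ := by
  apply (h x hxN hx).2
  refine lt_of_le_of_ne le_sup_right ?_
  intro h1
  exact not_le_of_not_mem hx (h1 ▸ le_sup_left)

theorem exists_mul (h : Hyp N) {x : G} (hxN : x ∈ N) (hx : x ∉ centralizer (N : Set G)) (g : G) :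
    ∃ n ∈ N, ∃ c ∈ centralizer ({x} : Set G), n * c = g := by
  have hg : g ∈ N ⊔ centralizer ({x} : Set G) := by rw [sup_eq_top h hxN hx]; trivial
  rw [← SetLike.mem_coe, Subgroup.normal_mul] at hg
  obtain ⟨n, hn, c, hc, e⟩ := hg
  exact ⟨n, hn, c, hc, e⟩

/-- conjugates under `G` are conjugates under `N` -/
theorem conj_eq (h : Hyp N) {x : G} (hxN : x ∈ N) (hx : x ∉ centralizer (N : Set G)) (g : G) :
    ∃ n ∈ N, g * x * g⁻¹ = n * x * n⁻¹ := by
  obtain ⟨n, hn, c, hc, rfl⟩ := exists_mul h hxN hx g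
  refine ⟨n, hn, ?_⟩
  have h1 : c * x * c⁻¹ = x := by
    rw [mem_centralizer_singleton_iff.mp hc]; group
  calc n * c * x * (n * c)⁻¹ = n * (c * x * c⁻¹) * n⁻¹ := by group
    _ = n * x * n⁻¹ := by rw [h1]

theorem le_normalizer_inf (x : G) : centralizer ({x} : Set G) ≤ normalizer ((N ⊓ centralizer ({x} : Set G) : Subgroup G) : Set G) := by
  intro c hc
  rw [H22.Basic.mem_normalizer_iff_cj, H22.Basic.cj_inf, H22.Basic.cj_eq_of_mem hc,
    H22.Basic.cj_eq_of_mem_normalizer (H := N) (by rw [normalizer_eq_top N]; trivial)]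

/-- maximality of `C_N(x)` among the `C_G(x)`-invariant subgroups -/
theorem maximal (h : Hyp N) {x : G} (hxN : x ∈ N) (hx : x ∉ centralizer (N : Set G)) {U : Subgroup G}
    (hAU : N ⊓ centralizer ({x} : Set G) ≤ U) (hUN : U ≤ N)
    (hUC : centralizer ({x} : Set G) ≤ normalizer (U : Set G)) : U = N ⊓ centralizer ({x} : Set G) ∨ U = N := by
  have hco := h x hxN hx
  rcases eq_or_lt_of_le (le_sup_right : centralizer ({x} : Set G) ≤ U ⊔ centralizer ({x} : Set G)) with h1 | h1
  · left
    apply le_antisymm _ hAU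
    refine le_inf hUN ?_
    rw [h1]; exact le_sup_left
  · right
    have h2 := hco.2 _ h1
    apply le_antisymm hUN
    intro n hn
    have h3 : n ∈ U ⊔ centralizer ({x} : Set G) := by rw [h2]; trivial
    rw [H22.Basic.mem_sup_of_le_normalizer hUC] at h3
    obtain ⟨u, hu, c, hc, rfl⟩ := h3
    refine mul_mem hu (hAU ⟨?_, hc⟩)
    have : c = u⁻¹ * (u * c) := by group
    show c ∈ N
    rw [this]
    exact mul_mem (inv_mem (hUN hu)) hn

theorem centralizer_pow_eq (h : Hyp N) {x : G} (hxN : x ∈ N) {k : ℕ}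
    (hxk : x ^ k ∉ centralizer (N : Set G)) : centralizer ({x} : Set G) = centralizer ({x ^ k} : Set G) := by
  have hx : x ∉ centralizer (N : Set G) := fun hx => hxk (pow_mem hx k)
  have hle : centralizer ({x} : Set G) ≤ centralizer ({x ^ k} : Set G) := by
    intro g hg
    rw [mem_centralizer_singleton_iff] at hg ⊢
    exact (Commute.pow_right hg k)
  rcases eq_or_lt_of_le hle with h1 | h1
  · exact h1
  · exact absurd ((h x hxN hx).2 _ h1) (h _ (pow_mem hxN k) hxk).1

/-- commuting elements of coprime order -/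
theorem coprime_le (h : Hyp N) {x y : G} (hxN : x ∈ N) (hx : x ∉ centralizer (N : Set G)) (hyN : y ∈ N)
    (hxy : x * y = y * x) (hco : Nat.Coprime (orderOf x) (orderOf y)) :
    centralizer ({x} : Set G) ≤ centralizer ({y} : Set G) := by
  have h1 := H23.ClassSize.centralizer_mul_le hxy hco
  have h2 := H23.ClassSize.centralizer_mul_le hxy.symm hco.symm
  rw [← hxy] at h2
  have h3 : x * y ∉ centralizer (N : Set G) := by
    intro h3
    apply not_le_of_not_mem hx
    refine le_trans ?_ h1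
    intro n hn
    rw [mem_centralizer_singleton_iff]
    exact mem_centralizer_iff.mp h3 n hn
  rcases eq_or_lt_of_le h1 with h4 | h4
  · rw [← h4]; exact h2
  · exact absurd ((h _ (mul_mem hxN hyN) h3).2 _ h4) (h x hxN hx).1

theorem coprime_le' (h : Hyp N) {x y : G} (hxN : x ∈ N) (hx : x ∉ centralizer (N : Set G)) (hyN : y ∈ N)
    (hxy : x * y = y * x) {p q : ℕ} (hp : p.Prime) (hq : q.Prime) (hpq : p ≠ q)
    (hxp : ∃ j, x ^ (p ^ j) = 1) (hyq : ∃ j, y ^ (q ^ j) = 1) :
    centralizer ({x} : Set G) ≤ centralizer ({y} : Set G) := by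
  apply coprime_le h hxN hx hyN hxy
  obtain ⟨i, hi⟩ := hxp
  obtain ⟨j, hj⟩ := hyq
  exact Nat.Coprime.coprime_dvd_left (orderOf_dvd_of_pow_eq_one hi)
    (Nat.Coprime.coprime_dvd_right (orderOf_dvd_of_pow_eq_one hj)
      (Nat.Coprime.pow _ _ ((Nat.coprime_primes hp hq).mpr hpq)))

/-- prime index -/
theorem prime_relIndex (h : Hyp N) {x : G} (hxN : x ∈ N) (hx : x ∉ centralizer (N : Set G)) {A : Subgroup G}
    (hA : A = N ⊓ centralizer ({x} : Set G)) [hAn : A.Normal] (hsol : ⁅N, N⁆ ⊔ A ≠ N) :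
    (A.relIndex N).Prime ∧ ⁅N, N⁆ ≤ A := by
  have hAN : A ≤ N := hA ▸ inf_le_left
  have hANne : A ≠ N := by
    intro h1
    apply not_le_of_not_mem hx
    rw [← h1, hA]; exact inf_le_right
  have hcomm : ⁅N, N⁆ ≤ A := by
    have hle : ⁅N, N⁆ ⊔ A ≤ N := sup_le (commutator_le_left N N) hAN
    rcases maximal h hxN hx (U := ⁅N, N⁆ ⊔ A) (hA ▸ le_sup_right) hle (by
      rw [normalizer_eq_top (⁅N, N⁆ ⊔ A)]; exact le_top) with h1 | h1
    · rw [← hA] at h1
      rw [← h1]; exact le_sup_left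
    · exact absurd h1 hsol
  refine ⟨?_, hcomm⟩
  have hAn' : (A.subgroupOf N).Normal := inferInstance
  have hco : IsCoatom (A.subgroupOf N) := by
    refine ⟨?_, ?_⟩
    · intro h1
      rw [subgroupOf_eq_top] at h1
      exact hANne (le_antisymm hAN h1)
    · intro U hU
      set V := U.map N.subtype with hV
      have hVN : V ≤ N := map_subtype_le _
      have hAV : A ≤ V := by
        intro a ha
        exact ⟨⟨a, hAN ha⟩, hU.le (by rw [mem_subgroupOf]; exact ha), rfl⟩
      have hVn : V.Normal := by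
        constructor
        intro u hu g
        by_cases huc : u ∈ centralizer (N : Set G)
        · apply hAV
          apply hAn.conj_mem
          rw [hA]
          refine ⟨hVN hu, ?_⟩
          show u ∈ centralizer ({x} : Set G)
          rw [mem_centralizer_singleton_iff]
          exact (mem_centralizer_iff.mp huc x hxN).symm
        · obtain ⟨n, hn, e⟩ := conj_eq h (hVN hu) huc g
          rw [e]
          have e2 : n * u * n⁻¹ = ⁅n, u⁆ * u := by rw [commutatorElement_def]; group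
          rw [e2]
          exact mul_mem (hAV (hcomm (commutator_mem_commutator hn (hVN hu)))) hu
      rcases maximal h hxN hx (U := V) (hA ▸ hAV) hVN (by rw [normalizer_eq_top V]; exact le_top) with h1 | h1
      · rw [← hA] at h1
        exfalso
        apply hU.ne
        apply map_injective N.subtype_injective
        rw [← hV, h1, subgroupOf_map_subtype, inf_eq_left.mpr hAN]
      · apply map_injective N.subtype_injective
        rw [← hV, h1, ← MonoidHom.range_eq_map, range_subtype]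
  exact H1.Basic.index_prime_of_isCoatom_of_normal hco

theorem sup_commutator_ne {A : Subgroup G} [hAn : A.Normal] (hAN : A < N)
    (hsol : Group.IsSolvable (↥N ⧸ A.subgroupOf N)) : ⁅N, N⁆ ⊔ A ≠ N := by
  intro heq
  have hne : A.subgroupOf N ≠ ⊤ := by
    intro h1
    rw [subgroupOf_eq_top] at h1
    exact absurd h1 (not_le_of_gt hAN)
  have hnt : Nontrivial (↥N ⧸ A.subgroupOf N) := by
    rw [QuotientGroup.nontrivial_iff]; exact hne
  have h1 := Group.IsSolvable.commutator_lt_top_of_nontrivial (↥N ⧸ A.subgroupOf N)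
  apply h1.ne
  rw [eq_top_iff]
  intro q _
  obtain ⟨n, rfl⟩ := QuotientGroup.mk'_surjective (A.subgroupOf N) q
  have h2 : (n : G) ∈ ⁅N, N⁆ ⊔ A := by rw [heq]; exact n.2
  rw [← SetLike.mem_coe, Subgroup.mul_normal] at h2
  obtain ⟨c, hc, a, ha, e⟩ := h2
  have hcN : c ∈ N := commutator_le_left N N hc
  have haN : a ∈ N := hAN.le ha
  have e' : n = (⟨c, hcN⟩ : N) * ⟨a, haN⟩ := Subtype.ext e.symm
  rw [e', map_mul]
  have h3 : QuotientGroup.mk' (A.subgroupOf N) ⟨a, haN⟩ = 1 := by
    rw [← MonoidHom.mem_ker, QuotientGroup.ker_mk', mem_subgroupOf]; exact ha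
  rw [h3, mul_one]
  have h4 : (⟨c, hcN⟩ : N) ∈ _root_.commutator N := by
    have h5 : (_root_.commutator N).map N.subtype = ⁅N, N⁆ := by
      rw [_root_.commutator_def, map_commutator, ← MonoidHom.range_eq_map, range_subtype]
    have hc' : c ∈ ⁅N, N⁆ := hc
    rw [← h5] at hc'
    obtain ⟨d, hd, e⟩ := hc'
    have : d = ⟨c, hcN⟩ := Subtype.ext e
    rwa [← this]
  have h5 : (_root_.commutator N).map (QuotientGroup.mk' (A.subgroupOf N)) ≤ _root_.commutator (↥N ⧸ A.subgroupOf N) := by
    rw [_root_.commutator_def, _root_.commutator_def, map_commutator]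
    exact commutator_mono le_top le_top
  exact h5 ⟨_, h4, rfl⟩

theorem commutator_le_of_forall {D : Subgroup G} (hD : D ≤ N)
    (h : ∀ x ∈ N, x ∉ centralizer (N : Set G) → D ≤ centralizer ({x} : Set G)) : D ≤ centralizer (N : Set G) := by
  intro c hc
  rw [mem_centralizer_iff]
  intro n hn
  by_cases h1 : n ∈ centralizer (N : Set G)
  · exact ((mem_centralizer_iff.mp h1) c (hD hc)).symm
  · exact (mem_centralizer_singleton_iff.mp (h n hn h1 hc)).symm

theorem nilp_step (h : Hyp N) (hnil : Group.IsNilpotent N) {x : G} (hxN : x ∈ N) (hx : x ∉ centralizer (N : Set G)) :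
    ((N ⊓ centralizer ({x} : Set G)).relIndex N).Prime ∧ ⁅N, N⁆ ≤ centralizer ({x} : Set G) ∧
      (N ⊓ centralizer ({x} : Set G)).Normal := by
  set A := N ⊓ centralizer ({x} : Set G) with hA
  have hAN : A ≤ N := inf_le_left
  have hANlt : A < N := lt_of_le_of_ne hAN (by
    intro h1
    apply not_le_of_not_mem hx
    rw [← h1]; exact inf_le_right)
  have hCA := le_normalizer_inf (N := N) x
  have hAnorm : A.Normal := by
    rw [← normalizer_eq_top_iff, eq_top_iff, ← sup_eq_top h hxN hx]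
    refine sup_le ?_ hCA
    have hU := maximal h hxN hx (U := N ⊓ normalizer (A : Set G)) (le_inf inf_le_left le_normalizer) inf_le_left (by
      intro c hc
      have h1 := hCA hc
      rw [H22.Basic.mem_normalizer_iff_cj, H22.Basic.cj_inf, H22.Basic.cj_eq_of_mem h1,
        H22.Basic.cj_eq_of_mem_normalizer (H := N) (by rw [normalizer_eq_top N]; trivial)])
    rcases hU with h1 | h1
    · exfalso
      have hne : A.subgroupOf N < ⊤ := by
        rw [lt_top_iff_ne_top]
        intro h2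
        rw [subgroupOf_eq_top] at h2
        exact absurd h2 (not_le_of_gt hANlt)
      obtain ⟨y, hy, hyA⟩ := SetLike.exists_of_lt (Group.normalizerCondition_of_isNilpotent _ hne)
      apply hyA
      rw [mem_subgroupOf, hA, ← h1]
      refine ⟨y.2, ?_⟩
      apply H22.Basic.mem_normalizer_of_cj_le
      rintro _ ⟨e, he, rfl⟩
      exact (mem_normalizer_iff.mp hy ⟨e, hAN he⟩).mp he
    · rw [← h1]; exact inf_le_right
  have hsol : Group.IsSolvable (↥N ⧸ A.subgroupOf N) := by
    infer_instance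
  obtain ⟨h1, h2⟩ := prime_relIndex h hxN hx (A := A) hA (sup_commutator_ne hANlt hsol)
  exact ⟨h1, h2.trans inf_le_right, hAnorm⟩

theorem nilp_case (h : Hyp N) (hnil : Group.IsNilpotent N) :
    ⁅N, N⁆ ≤ centralizer (N : Set G) ∧ ∃ p : ℕ, p.Prime ∧ ∀ n ∈ N, n ^ p ∈ centralizer (N : Set G) := by
  have hcomm : ⁅N, N⁆ ≤ centralizer (N : Set G) :=
    commutator_le_of_forall (commutator_le_left N N) (fun x hx hxc => (nilp_step h hnil hx hxc).2.1)
  refine ⟨hcomm, ?_⟩
  by_cases hall : ∀ x ∈ N, x ∈ centralizer (N : Set G)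
  · exact ⟨2, Nat.prime_two, fun n hn => pow_mem (hall n hn) 2⟩
  push Not at hall
  obtain ⟨x, hxN, hx⟩ := hall
  set q : G → ℕ := fun y => (N ⊓ centralizer ({y} : Set G)).relIndex N with hq
  have hqp : ∀ y ∈ N, y ∉ centralizer (N : Set G) → (q y).Prime := fun y hy hyc => (nilp_step h hnil hy hyc).1
  have hpow : ∀ y ∈ N, y ∉ centralizer (N : Set G) → ∀ n ∈ N, n ^ (q y) ∈ centralizer ({y} : Set G) := by
    intro y hy hyc n hn
    have hnm := (nilp_step h hnil hy hyc).2.2
    have hnm' : ((N ⊓ centralizer ({y} : Set G)).subgroupOf N).Normal := inferInstance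
    have h1 := pow_index_mem ((N ⊓ centralizer ({y} : Set G)).subgroupOf N) (⟨n, hn⟩ : N)
    exact h1.2
  -- exponents on commutators
  have hcp : ∀ y ∈ N, y ∉ centralizer (N : Set G) → ∀ n ∈ N, ⁅y, n⁆ ^ (q y) = 1 := by
    intro y hy hyc n hn
    have h1 := hpow y hy hyc n hn
    rw [mem_centralizer_singleton_iff] at h1
    have hc : ⁅y, n⁆ ∈ centralizer (N : Set G) := hcomm (commutator_mem_commutator hy hn)
    have hcn : n * ⁅y, n⁆ = ⁅y, n⁆ * n := mem_centralizer_iff.mp hc n hn
    -- y n^k y⁻¹ = c^k n^k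
    have h2 : ∀ k : ℕ, y * n ^ k * y⁻¹ = ⁅y, n⁆ ^ k * n ^ k := by
      intro k
      induction k with
      | zero => simp
      | succ k ih =>
        have h3 : Commute n (⁅y, n⁆ ^ k) := Commute.pow_right hcn k
        have h4 : Commute (n ^ k) (⁅y, n⁆) := Commute.pow_left hcn k
        have h5 : y * n * y⁻¹ = ⁅y, n⁆ * n := by rw [commutatorElement_def]; group
        calc y * n ^ (k + 1) * y⁻¹ = (y * n ^ k * y⁻¹) * (y * n * y⁻¹) := by rw [pow_succ]; group
          _ = ⁅y, n⁆ ^ k * (n ^ k * ⁅y, n⁆) * n := by rw [ih, h5]; group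
          _ = ⁅y, n⁆ ^ (k + 1) * n ^ (k + 1) := by rw [h4.eq, pow_succ, pow_succ]; group
    have h3 := h2 (q y)
    have h4 : y * n ^ (q y) * y⁻¹ = n ^ (q y) := by rw [← h1]; group
    rw [h4] at h3
    have h5 : (1 : G) * n ^ (q y) = ⁅y, n⁆ ^ (q y) * n ^ (q y) := by rw [one_mul]; exact h3
    exact (mul_right_cancel h5).symm
  have hqeq : ∀ y ∈ N, y ∉ centralizer (N : Set G) → ∀ z ∈ N, z ∉ centralizer (N : Set G) → q y = q z := by
    intro y hy hyc z hz hzc
    by_contra hne
    have hco : Nat.Coprime (q y) (q z) := (Nat.coprime_primes (hqp y hy hyc) (hqp z hz hzc)).mpr hne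
    -- C_N(yz) ≤ C_N(y) ∩ C_N(z)
    have hyz : ∀ n ∈ N, n * (y * z) = (y * z) * n → n * y = y * n ∧ n * z = z * n := by
      intro n hn hc
      have h1 := hcp y hy hyc n hn
      have h2 := hcp z hz hzc n hn
      have hcz : ⁅z, n⁆ ∈ centralizer (N : Set G) := hcomm (commutator_mem_commutator hz hn)
      have h3 : ⁅y * z, n⁆ = ⁅y, n⁆ * ⁅z, n⁆ := by
        have h4 : y * ⁅z, n⁆ = ⁅z, n⁆ * y := mem_centralizer_iff.mp hcz y hy
        have h5 : n * ⁅z, n⁆ = ⁅z, n⁆ * n := mem_centralizer_iff.mp hcz n hn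
        have e1 : z * n * z⁻¹ = ⁅z, n⁆ * n := by rw [commutatorElement_def]; group
        calc ⁅y * z, n⁆ = y * (z * n * z⁻¹) * y⁻¹ * n⁻¹ := by rw [commutatorElement_def]; group
          _ = (y * ⁅z, n⁆) * n * y⁻¹ * n⁻¹ := by rw [e1]; group
          _ = ⁅z, n⁆ * ⁅y, n⁆ := by rw [h4, commutatorElement_def y n]; group
          _ = ⁅y, n⁆ * ⁅z, n⁆ := by
            have h6 : ⁅y, n⁆ * ⁅z, n⁆ = ⁅z, n⁆ * ⁅y, n⁆ :=
              mem_centralizer_iff.mp hcz _ (commutator_le_left N N (commutator_mem_commutator hy hn))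
            exact h6.symm
      have h4 : ⁅y * z, n⁆ = 1 := by
        rw [commutatorElement_eq_one_iff_mul_comm]; exact hc.symm
      rw [h4] at h3
      have h5 : ⁅z, n⁆ = ⁅y, n⁆⁻¹ := (eq_inv_of_mul_eq_one_right h3.symm)
      have h6 : orderOf (⁅z, n⁆) ∣ q z := orderOf_dvd_of_pow_eq_one h2
      have h7 : orderOf (⁅z, n⁆) ∣ q y := by
        rw [h5, orderOf_inv]; exact orderOf_dvd_of_pow_eq_one h1
      have h8 := Nat.dvd_gcd h7 h6
      rw [hco.gcd_eq_one, Nat.dvd_one, orderOf_eq_one_iff] at h8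
      have h9 : ⁅y, n⁆ = 1 := by
        rw [h8] at h5
        exact inv_eq_one.mp h5.symm
      rw [commutatorElement_eq_one_iff_mul_comm] at h8 h9
      exact ⟨h9.symm, h8.symm⟩
    -- a general coprime argument
    have hgen : ∀ w ∈ N, w ∉ centralizer (N : Set G) → ∀ a b : ℕ, Nat.Coprime a b →
        (∀ n ∈ N, n ^ a ∈ centralizer ({w} : Set G)) → (∀ n ∈ N, n ^ b ∈ centralizer ({w} : Set G)) → False := by
      intro w hw hwc a b hab ha hb
      apply not_le_of_not_mem hwc
      intro n hn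
      have h1 := Nat.gcd_eq_gcd_ab a b
      rw [hab.gcd_eq_one] at h1
      have h2 : n = (n ^ a) ^ (Nat.gcdA a b) * (n ^ b) ^ (Nat.gcdB a b) := by
        rw [← zpow_natCast n a, ← zpow_natCast n b, ← zpow_mul, ← zpow_mul, ← zpow_add, ← h1]
        simp
      rw [h2]
      exact mul_mem (zpow_mem (ha n hn) _) (zpow_mem (hb n hn) _)
    by_cases hyzc : y * z ∈ centralizer (N : Set G)
    · -- then all n ∈ N centralize y
      apply not_le_of_not_mem hyc
      intro n hn
      rw [mem_centralizer_singleton_iff]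
      exact (hyz n hn (mem_centralizer_iff.mp hyzc n hn)).1
    · have hyzN : y * z ∈ N := mul_mem hy hz
      have h1 : q (y * z) = q y := by
        by_contra hne'
        refine hgen y hy hyc (q (y * z)) (q y)
          ((Nat.coprime_primes (hqp _ hyzN hyzc) (hqp y hy hyc)).mpr hne') ?_ (hpow y hy hyc)
        intro n hn
        have h2 := hpow _ hyzN hyzc n hn
        rw [mem_centralizer_singleton_iff] at h2 ⊢
        exact (hyz _ (pow_mem hn _) h2).1
      have h2 : q (y * z) = q z := by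
        by_contra hne'
        refine hgen z hz hzc (q (y * z)) (q z)
          ((Nat.coprime_primes (hqp _ hyzN hyzc) (hqp z hz hzc)).mpr hne') ?_ (hpow z hz hzc)
        intro n hn
        have h2 := hpow _ hyzN hyzc n hn
        rw [mem_centralizer_singleton_iff] at h2 ⊢
        exact (hyz _ (pow_mem hn _) h2).2
      exact hne (h1.symm.trans h2)
  refine ⟨q x, hqp x hxN hx, ?_⟩
  intro n hn
  rw [mem_centralizer_iff]
  intro y hy
  by_cases hyc : y ∈ centralizer (N : Set G)
  · exact (mem_centralizer_iff.mp hyc _ (pow_mem hn _)).symm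
  · have h1 := hpow y hy hyc n hn
    rw [hqeq y hy hyc x hxN hx, mem_centralizer_singleton_iff] at h1
    exact h1.symm

end Cfsg.Agent.H22.RelMax
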