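import Mathlib
import Cfsg.Agent.H22_RelMax
import Cfsg.Agent.H23_FrobKer
import Cfsg.Prelude.Def_Solvable
import Cfsg.Prelude.Def_Transfer

set_option autoImplicit false

namespace Cfsg.Agent.H22.RelMax

open Subgroup
open scoped commutatorElement Pointwise

variable {G : Type*} [Group G] [Finite G]
variable {N : Subgroup G} [hNn : N.Normal]

theorem relIndex_step {p : ℕ} (hp : p.Prime) {A B C : Subgroup G} (hAB : A ≤ B) (hBC : B ≤ C) (hAC : A.relIndex C = p)
    (hne : ¬ B ≤ A) : C ≤ B := by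
  have h := relIndex_mul_relIndex _ _ _ hAB hBC
  rw [hAC] at h
  rcases (Nat.dvd_prime hp).mp ⟨_, h.symm⟩ with h1 | h1
  · rw [relIndex_eq_one] at h1
    exact absurd h1 hne
  · rw [h1] at h
    have h3 : B.relIndex C = 1 := Nat.eq_of_mul_eq_mul_left hp.pos (by rw [h, mul_one])
    rwa [relIndex_eq_one] at h3

theorem mem_center_iff' {n : N} : n ∈ center N ↔ (n : G) ∈ centralizer (N : Set G) := by
  rw [mem_center_iff, mem_centralizer_iff]
  constructor
  · intro h g hg
    exact congrArg Subtype.val (h ⟨g, hg⟩)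
  · intro h g
    exact Subtype.ext (h g g.2)

theorem nilp_of_quot (h : IsMulCommutative (N ⧸ center N)) : Group.IsNilpotent N := by
  let _ : CommGroup (N ⧸ center N) := { (inferInstance : Group (N ⧸ center N)) with
    mul_comm := fun a b => h.is_comm.comm a b }
  have h1 : Group.IsNilpotent (N ⧸ center N) := inferInstance
  exact Group.of_quotient_center_nilpotent h1

theorem nilp_of_comm (hc : ⁅N, N⁆ ≤ centralizer (N : Set G)) : Group.IsNilpotent N := by
  apply nilp_of_quot
  refine ⟨⟨fun a b => ?_⟩⟩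
  obtain ⟨a, rfl⟩ := QuotientGroup.mk'_surjective (center N) a
  obtain ⟨b, rfl⟩ := QuotientGroup.mk'_surjective (center N) b
  rw [← map_mul, ← map_mul]
  apply QuotientGroup.eq.mpr
  rw [mem_center_iff']
  have h1 : (((a * b)⁻¹ * (b * a) : N) : G) = ⁅(b : G)⁻¹, (a : G)⁻¹⁆ := by
    rw [commutatorElement_def]
    simp only [Subgroup.coe_mul, Subgroup.coe_inv]
    group
  rw [h1]
  exact hc (commutator_mem_commutator (inv_mem b.2) (inv_mem a.2))

theorem final0 (h : Hyp N) (hnn : ¬ Group.IsNilpotent N) {K : Subgroup G} [hKn : K.Normal] (hKN : K ≤ N)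
    (hZK : N ⊓ centralizer (N : Set G) ≤ K) (hKab : ∀ x ∈ K, ∀ y ∈ K, x * y = y * x) (hr : (K.relIndex N).Prime) 
    {y : G} (hyN : y ∈ N) (hyK : y ∉ K) :
    (∀ k ∈ K, k * y = y * k → k ∈ centralizer (N : Set G)) ∧
    (∀ U : Subgroup G, N ⊓ centralizer (N : Set G) ≤ U → U ≤ K → centralizer ({y} : Set G) ≤ normalizer (U : Set G) →
      U = N ⊓ centralizer (N : Set G) ∨ U = K) ∧
    (∀ k ∈ K, ⁅k, y⁆ ∈ centralizer (N : Set G) → k ∈ centralizer (N : Set G)) := by
  have hyc : y ∉ centralizer (N : Set G) := fun hc => hyK (hZK ⟨hyN, hc⟩)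
  have hgen : N ≤ K ⊔ zpowers y := by
    refine relIndex_step hr (A := K) le_sup_left (sup_le hKN (by rwa [zpowers_le])) rfl ?_
    intro h1
    exact hyK (h1 (mem_sup_right (mem_zpowers y)))
  have h1 : ∀ k ∈ K, k * y = y * k → k ∈ centralizer (N : Set G) := by
    intro k hk hky
    have h2 : K ⊔ zpowers y ≤ centralizer ({k} : Set G) := by
      refine sup_le ?_ ?_
      · intro x hx
        rw [mem_centralizer_singleton_iff]
        exact hKab x hx k hk
      · rw [zpowers_le, mem_centralizer_singleton_iff]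
        exact hky.symm
    rw [mem_centralizer_iff]
    intro n hn
    exact mem_centralizer_singleton_iff.mp (h2 (hgen hn))
  have h2 : ∀ U : Subgroup G, N ⊓ centralizer (N : Set G) ≤ U → U ≤ K → centralizer ({y} : Set G) ≤ normalizer (U : Set G) →
      U = N ⊓ centralizer (N : Set G) ∨ U = K := by
    intro U hZU hUK hUy
    have hBn := le_normalizer_inf (N := N) y
    set B := N ⊓ centralizer ({y} : Set G) with hB
    have hBU : B ≤ normalizer (U : Set G) := inf_le_right.trans hUy
    have hUinv : centralizer ({y} : Set G) ≤ normalizer ((B ⊔ U : Subgroup G) : Set G) := by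
      intro c hc
      rw [H22.Basic.mem_normalizer_iff_cj, H22.Basic.cj_sup, H22.Basic.cj_eq_of_mem_normalizer (hBn hc),
        H22.Basic.cj_eq_of_mem_normalizer (hUy hc)]
    rcases maximal h hyN hyc (U := B ⊔ U) le_sup_left (sup_le inf_le_left (hUK.trans hKN)) hUinv with h3 | h3
    · left
      apply le_antisymm _ hZU
      intro u hu
      refine ⟨hKN (hUK hu), ?_⟩
      apply h1 u (hUK hu)
      have h4 : u ∈ B ⊔ U := mem_sup_right hu
      rw [h3] at h4
      exact mem_centralizer_singleton_iff.mp h4.2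
    · right
      apply le_antisymm hUK
      intro k hk
      have h4 : k ∈ B ⊔ U := by rw [h3]; exact hKN hk
      rw [sup_comm, H22.Basic.mem_sup_of_le_normalizer' hBU] at h4
      obtain ⟨b, hb, u, hu, e⟩ := h4
      have hbK : b ∈ K := by
        have : b = k * u⁻¹ := by rw [← e]; group
        rw [this]; exact mul_mem hk (inv_mem (hUK hu))
      have hbc := h1 b hbK (mem_centralizer_singleton_iff.mp hb.2)
      rw [← e]
      exact mul_mem (hZU ⟨hb.1, hbc⟩) hu
  refine ⟨h1, h2, ?_⟩
  -- D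
  let Z := N ⊓ centralizer (N : Set G)
  have hZn : Z.Normal := inferInstance
  let π := QuotientGroup.mk' Z
  have hπ : ∀ g : G, π g = 1 ↔ g ∈ Z := by
    intro g
    rw [← MonoidHom.mem_ker, QuotientGroup.ker_mk']
  set T := (centralizer ({π y} : Set (G ⧸ Z))).comap π with hT
  have hmemT : ∀ k : G, k ∈ T ↔ ⁅k, y⁆ ∈ Z := by
    intro k
    rw [hT, mem_comap, mem_centralizer_singleton_iff, ← hπ, commutatorElement_def, map_mul, map_mul, map_mul,
      map_inv, map_inv]
    constructor
    · intro h3; rw [h3]; group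
    · intro h3
      calc π k * π y = (π k * π y * (π k)⁻¹ * (π y)⁻¹) * (π y * π k) := by group
        _ = π y * π k := by rw [h3, one_mul]
  have hD := h2 (K ⊓ T) (by
      intro z hz
      refine ⟨hZK hz, ?_⟩
      show z ∈ T
      rw [hmemT, ← hπ, commutatorElement_def]
      have : π z = 1 := (hπ z).mpr hz
      rw [map_mul, map_mul, map_mul, map_inv, map_inv, this]; group) inf_le_left (by
      intro c hc
      have hcT : c ∈ T := by
        rw [hmemT]
        rw [mem_centralizer_singleton_iff] at hc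
        rw [commutatorElement_def]
        have : c * y * c⁻¹ * y⁻¹ = 1 := by rw [hc]; group
        rw [this]; exact one_mem _
      rw [H22.Basic.mem_normalizer_iff_cj, H22.Basic.cj_inf, H22.Basic.cj_eq_of_mem hcT,
        H22.Basic.cj_eq_of_mem_normalizer (H := K) (by rw [normalizer_eq_top K]; trivial)])
  rcases hD with h3 | h3
  · intro k hk hky
    have h4 : k ∈ K ⊓ T := ⟨hk, by
      show k ∈ T
      rw [hmemT]
      refine ⟨?_, hky⟩
      show k * y * k⁻¹ * y⁻¹ ∈ N
      exact mul_mem (mul_mem (mul_mem (hKN hk) hyN) (inv_mem (hKN hk))) (inv_mem hyN)⟩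
    rw [h3] at h4
    exact h4.2
  · exfalso
    apply hnn
    apply nilp_of_comm
    -- π is commutative on N
    have hKT : K ≤ T := by rw [← h3]; exact inf_le_right
    have hyKc : ∀ k ∈ K, π k * π y = π y * π k := by
      intro k hk
      exact mem_centralizer_singleton_iff.mp (hKT hk)
    have hN1 : ∀ n ∈ N, ∃ k ∈ K, ∃ i : ℤ, k * y ^ i = n := by
      intro n hn
      have h4 := hgen hn
      rw [← SetLike.mem_coe, Subgroup.normal_mul] at h4
      obtain ⟨k, hk, z, ⟨i, hi⟩, e⟩ := h4
      exact ⟨k, hk, i, by rw [← e]; simp only at hi; rw [hi]⟩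
    have hcomm : ∀ a ∈ N, ∀ b ∈ N, π a * π b = π b * π a := by
      intro a ha b hb
      obtain ⟨k, hk, i, rfl⟩ := hN1 a ha
      obtain ⟨l, hl, j, rfl⟩ := hN1 b hb
      have c1 : Commute (π k) (π l) := by
        show π k * π l = π l * π k
        rw [← map_mul, hKab k hk l hl, map_mul]
      have c2 : Commute (π k) (π y ^ j) := Commute.zpow_right (hyKc k hk) j
      have c3 : Commute (π l) (π y ^ i) := Commute.zpow_right (hyKc l hl) i
      have c4 : Commute (π y ^ i) (π y ^ j) := Commute.zpow_zpow_self _ _ _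
      rw [map_mul, map_mul, map_zpow, map_zpow]
      exact ((c1.mul_right c2).mul_left (c3.symm.mul_right c4))
    rw [commutator_le]
    intro a ha b hb
    have h5 : π ⁅a, b⁆ = 1 := by
      rw [commutatorElement_def, map_mul, map_mul, map_mul, map_inv, map_inv, hcomm a ha b hb]; group
    exact ((hπ _).mp h5).2

theorem final (h : Hyp N) (hnn : ¬ Group.IsNilpotent N) {K : Subgroup G} [hKn : K.Normal] (hKN : K ≤ N)
    (hZK : N ⊓ centralizer (N : Set G) ≤ K) (hKab : ∀ x ∈ K, ∀ y ∈ K, x * y = y * x) (hr : (K.relIndex N).Prime) :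
    ∃ (Q K' : Subgroup (N ⧸ center N)) (p : ℕ), p.Prime ∧ Cfsg.IsFrobeniusComplement Q ∧ (Nat.card Q).Prime ∧
      K'.Normal ∧ (K' : Set (N ⧸ center N)) = Cfsg.frobeniusKernel Q ∧ Cfsg.IsElementaryAbelian p K' ∧
      K' = (K.subgroupOf N).map (QuotientGroup.mk' (center N)) := by
  obtain ⟨y, hyN, hyK⟩ : ∃ y ∈ N, y ∉ K := by
    by_contra hcon
    push Not at hcon
    rw [relIndex_eq_one.mpr hcon] at hr
    exact Nat.not_prime_one hr
  obtain ⟨h1, h2, h3⟩ := final0 h hnn hKN hZK hKab hr hyN hyK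
  have hyc : y ∉ centralizer (N : Set G) := fun hc => hyK (hZK ⟨hyN, hc⟩)
  set r := K.relIndex N with hrdef
  let π := QuotientGroup.mk' (center N)
  have hπs : Function.Surjective π := QuotientGroup.mk'_surjective _
  have hπk : π.ker = center N := QuotientGroup.ker_mk' _
  have hπ1 : ∀ n : N, π n = 1 ↔ (n : G) ∈ centralizer (N : Set G) := by
    intro n
    rw [← MonoidHom.mem_ker, hπk, mem_center_iff']
  set y' : N := ⟨y, hyN⟩ with hy'
  set K' := (K.subgroupOf N).map π with hK'
  have hcK : center N ≤ K.subgroupOf N := by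
    intro z hz
    rw [mem_subgroupOf]
    exact hZK ⟨z.2, mem_center_iff'.mp hz⟩
  have hmemK' : ∀ n : N, π n ∈ K' ↔ (n : G) ∈ K := by
    intro n
    rw [hK', ← mem_comap, comap_map_eq, hπk, sup_eq_left.mpr hcK, mem_subgroupOf]
  have hK'n : K'.Normal := by
    have : (K.subgroupOf N).Normal := inferInstance
    exact this.map π hπs
  have hK'i : K'.index = r := by
    rw [hK', index_map_eq _ hπs (by rw [hπk]; exact hcK)]; rfl
  set Q := zpowers (π y') with hQ
  have hyr : (π y') ^ r = 1 := by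
    have h4 : y' ^ r ∈ K.subgroupOf N := by
      have : (K.subgroupOf N).Normal := inferInstance
      exact pow_index_mem (K.subgroupOf N) y'
    have h5 : ((y' ^ r : N) : G) ∈ centralizer (N : Set G) := by
      apply h1 _ h4
      show ((y' ^ r : N) : G) * (y' : G) = (y' : G) * ((y' ^ r : N) : G)
      rw [← Subgroup.coe_mul, ← Subgroup.coe_mul, ← pow_succ, ← pow_succ']
    rw [← map_pow, hπ1]; exact h5
  have hy1 : π y' ≠ 1 := by
    intro h4
    exact hyc ((hπ1 y').mp h4)
  have hfr : Fact r.Prime := ⟨hr⟩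
  have hyo : orderOf (π y') = r := orderOf_eq_prime hyr hy1
  have hQc : Nat.card Q = r := by rw [hQ, Nat.card_zpowers, hyo]
  have hyK' : π y' ∉ K' := by rw [hmemK']; exact hyK
  have hinf : K' ⊓ Q = ⊥ := by
    have h4 : Nat.card (K' ⊓ Q : Subgroup (N ⧸ center N)) ∣ r := by rw [← hQc]; exact card_dvd_of_le inf_le_right
    rcases (Nat.dvd_prime hr).mp h4 with h5 | h5
    · rwa [card_eq_one] at h5
    · exfalso
      have h6 : K' ⊓ Q = Q := H22.Basic.eq_of_le_of_card_le inf_le_right (by rw [h5, hQc])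
      apply hyK'
      have h7 : π y' ∈ K' ⊓ Q := by rw [h6]; exact mem_zpowers _
      exact h7.1
  have hcompl : IsComplement' K' Q := by
    apply isComplement'_of_card_mul_and_disjoint
    · rw [hQc, ← hK'i]; exact K'.card_mul_index
    · rw [disjoint_iff]; exact hinf
  have hK'ne : ∃ k ∈ K, k ∉ centralizer (N : Set G) := by
    by_contra hcon
    push Not at hcon
    apply not_le_of_not_mem hyc
    have hgen : N ≤ K ⊔ zpowers y := by
      refine relIndex_step hr (A := K) le_sup_left (sup_le hKN (by rwa [zpowers_le])) rfl ?_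
      intro h1
      exact hyK (h1 (mem_sup_right (mem_zpowers y)))
    refine hgen.trans (sup_le ?_ ?_)
    · intro k hk
      rw [mem_centralizer_singleton_iff]
      exact (mem_centralizer_iff.mp (hcon k hk) y hyN).symm
    · rw [zpowers_le, mem_centralizer_singleton_iff]
  have hfrob : Cfsg.IsFrobeniusComplement Q := by
    refine ⟨?_, ?_, ?_⟩
    · intro h4
      rw [h4, card_bot] at hQc
      exact hr.one_lt.ne hQc
    · intro h4
      rw [h4, inf_top_eq] at hinf
      obtain ⟨k, hk, hkc⟩ := hK'ne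
      have h5 : π ⟨k, hKN hk⟩ ∈ K' := (hmemK' _).mpr hk
      rw [hinf, mem_bot, hπ1] at h5
      exact hkc h5
    · intro g hg
      by_contra hne
      have h4 : Nat.card (Q ⊓ (MulAut.conj g • Q) : Subgroup (N ⧸ center N)) ∣ r := by
        rw [← hQc]; exact card_dvd_of_le inf_le_left
      have h5 : Nat.card (Q ⊓ (MulAut.conj g • Q) : Subgroup (N ⧸ center N)) = r := by
        rcases (Nat.dvd_prime hr).mp h4 with h5 | h5
        · rw [card_eq_one] at h5
          exact absurd h5 hne
        · exact h5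
      have h6 : Q ⊓ (MulAut.conj g • Q) = Q := H22.Basic.eq_of_le_of_card_le inf_le_left (by rw [h5, hQc])
      have h7 : Q ≤ MulAut.conj g • Q := by
        have : Q ⊓ (MulAut.conj g • Q) ≤ MulAut.conj g • Q := inf_le_right
        rwa [h6] at this
      have h8 : Q = MulAut.conj g • Q := H22.Basic.eq_of_le_of_card_le h7 (by rw [H1.Basic.card_conj])
      -- g = k q
      have hgt : g ∈ K' ⊔ Q := by rw [hcompl.sup_eq_top]; trivial
      rw [← SetLike.mem_coe, Subgroup.normal_mul] at hgt
      obtain ⟨k, hk, q, hq, e⟩ := hgt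
      have hkq : ∀ z ∈ Q, k * z * k⁻¹ ∈ Q := by
        intro z hz
        have h9 : q⁻¹ * z * q ∈ Q := mul_mem (mul_mem (inv_mem hq) hz) hq
        have h10 : g * (q⁻¹ * z * q) * g⁻¹ ∈ MulAut.conj g • Q := H1.Basic.conj_mem_conj.mpr h9
        rw [← h8] at h10
        have h11 : g * (q⁻¹ * z * q) * g⁻¹ = k * z * k⁻¹ := by rw [← e]; group
        rwa [h11] at h10
      have h9 : k * π y' * k⁻¹ * (π y')⁻¹ ∈ K' ⊓ Q := by
        refine ⟨?_, ?_⟩
        · have : k * π y' * k⁻¹ * (π y')⁻¹ = k * (π y' * k⁻¹ * (π y')⁻¹) := by group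
          rw [this]
          exact mul_mem hk (hK'n.conj_mem _ (inv_mem hk) _)
        · show k * π y' * k⁻¹ * (π y')⁻¹ ∈ Q
          exact mul_mem (hkq _ (mem_zpowers _)) (inv_mem (mem_zpowers _))
      rw [hinf, mem_bot] at h9
      obtain ⟨k0, hk0, rfl⟩ := hk
      have h10 : ((⁅k0, y'⁆ : N) : G) ∈ centralizer (N : Set G) := by
        rw [← hπ1, commutatorElement_def, map_mul, map_mul, map_mul, map_inv, map_inv]
        exact h9
      have h11 : (k0 : G) ∈ centralizer (N : Set G) := h3 k0 hk0 h10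
      rw [← hπ1] at h11
      rw [h11] at e
      apply hg
      rw [← e]
      show (1 : N ⧸ center N) * q ∈ Q
      rw [one_mul]; exact hq
  -- the prime p
  obtain ⟨k0, hk0, hk0c⟩ := hK'ne
  have hK'1 : Nat.card K' ≠ 1 := by
    intro h4
    rw [card_eq_one] at h4
    have h5 : π ⟨k0, hKN hk0⟩ ∈ K' := (hmemK' _).mpr hk0
    rw [h4, mem_bot, hπ1] at h5
    exact hk0c h5
  obtain ⟨p, hp, hpd⟩ := Nat.exists_prime_and_dvd hK'1
  have hfp : Fact p.Prime := ⟨hp⟩
  let U : Subgroup G :=
    { carrier := {k | k ∈ K ∧ k ^ p ∈ N ⊓ centralizer (N : Set G)}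
      one_mem' := ⟨one_mem _, by rw [one_pow]; exact one_mem _⟩
      mul_mem' := by
        rintro a b ⟨ha, ha'⟩ ⟨hb, hb'⟩
        refine ⟨mul_mem ha hb, ?_⟩
        have hc : Commute a b := hKab a ha b hb
        rw [hc.mul_pow]
        exact mul_mem ha' hb'
      inv_mem' := by
        rintro a ⟨ha, ha'⟩
        exact ⟨inv_mem ha, by rw [inv_pow]; exact inv_mem ha'⟩ }
  have hZn : (N ⊓ centralizer (N : Set G)).Normal := inferInstance
  have hUn : U.Normal := by
    constructor
    rintro k ⟨hk, hk'⟩ g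
    refine ⟨hKn.conj_mem k hk g, ?_⟩
    rw [conj_pow]
    exact hZn.conj_mem _ hk' g
  have hU := h2 U (fun z hz => ⟨hZK hz, pow_mem hz p⟩) (fun u hu => hu.1) (by rw [normalizer_eq_top U]; exact le_top)
  have hUK : U = K := by
    rcases hU with hU | hU
    · exfalso
      obtain ⟨z, hz⟩ := exists_prime_orderOf_dvd_card' (G := K') p hpd
      obtain ⟨k, hk, hkz⟩ := z.2
      have h4 : (π k) ^ p = 1 := by
        rw [hkz]
        have := pow_orderOf_eq_one z
        rw [hz] at this
        exact congrArg Subtype.val this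
      have h5 : (k : G) ∈ U := by
        refine ⟨hk, pow_mem k.2 p, ?_⟩
        rw [← map_pow, hπ1] at h4
        exact h4
      rw [hU] at h5
      have h6 : π k = 1 := (hπ1 k).mpr h5.2
      rw [hkz] at h6
      have h7 : z = 1 := Subtype.ext h6
      rw [h7, orderOf_one] at hz
      exact hp.one_lt.ne hz
    · exact hU
  refine ⟨Q, K', p, hp, hfrob, by rw [hQc]; exact hr, hK'n, ?_, ?_, rfl⟩
  · exact (H23.FrobKer.kernel_eq K' Q hcompl hfrob).symm
  · refine ⟨⟨⟨?_⟩⟩, ?_⟩
    · rintro ⟨a, ha⟩ ⟨b, hb⟩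
      obtain ⟨a, ha, rfl⟩ := ha
      obtain ⟨b, hb, rfl⟩ := hb
      apply Subtype.ext
      show π a * π b = π b * π a
      rw [← map_mul, ← map_mul]
      congr 1
      exact Subtype.ext (hKab a ha b hb)
    · rintro _ ⟨a, ha, rfl⟩
      rw [← map_pow, hπ1]
      have h4 : (a : G) ∈ U := by rw [hUK]; exact ha
      exact h4.2.2

end Cfsg.Agent.H22.RelMax
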