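import Mathlib
import Cfsg.Agent.H22_RelMax2
import Cfsg.Agent.H9_FrobKer

set_option autoImplicit false

namespace Cfsg.Agent.H22.RelMax

open Subgroup
open scoped commutatorElement Pointwise

variable {G : Type*} [Group G] [Finite G]
variable {N : Subgroup G} [hNn : N.Normal]

/-- the goal of the non-nilpotent case -/
def Concl (N : Subgroup G) : Prop := ∃ K : Subgroup G, K.Normal ∧ K ≤ N ∧ N ⊓ centralizer (N : Set G) ≤ K ∧
  (∀ x ∈ K, ∀ y ∈ K, x * y = y * x) ∧ (K.relIndex N).Prime

theorem eq_of_coatom_le {M L : Subgroup G} (hM : IsCoatom M) (h : M ≤ L) (hL : L ≠ ⊤) : M = L := by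
  rcases eq_or_lt_of_le h with h1 | h1
  · exact h1
  · exact absurd (hM.2 _ h1) hL

/-- if `C_N(k) ≤ K` for all noncentral primary `k ∈ K`, `K ⊴ G`, we are done -/
theorem concl_of (h : Hyp N) {K : Subgroup G} [hKn : K.Normal] (hKN : K ≤ N) (hKne : K ≠ N)
    (hZK : N ⊓ centralizer (N : Set G) ≤ K)
    (hK : ∀ k ∈ K, k ∉ centralizer (N : Set G) → (∃ p : ℕ, p.Prime ∧ ∃ j : ℕ, k ^ (p ^ j) = 1) →
      N ⊓ centralizer ({k} : Set G) ≤ K)
    (hsol : Group.IsSolvable (↥N ⧸ K.subgroupOf N)) {k0 : G} (hk0 : k0 ∈ K) (hk0c : k0 ∉ centralizer (N : Set G)) :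
    Concl N := by
  have hKeq : ∀ k ∈ K, k ∉ centralizer (N : Set G) → (∃ p : ℕ, p.Prime ∧ ∃ j : ℕ, k ^ (p ^ j) = 1) →
      K = N ⊓ centralizer ({k} : Set G) := by
    intro k hk hkc hkp
    rcases maximal h (hKN hk) hkc (U := K) (hK k hk hkc hkp) hKN (by rw [normalizer_eq_top K]; exact le_top) with h1 | h1
    · exact h1
    · exact absurd h1 hKne
  have hKab : ∀ x ∈ K, ∀ y ∈ K, x * y = y * x := by
    intro x hx y hy
    have h1 : y ∈ centralizer (K : Set G) := by
      apply mem_of_primary
      intro k r hr hj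
      by_cases h2 : y ^ k ∈ centralizer (N : Set G)
      · exact centralizer_le hKN h2
      · have h3 := hKeq (y ^ k) (pow_mem hy k) h2 ⟨r, hr, hj⟩
        rw [mem_centralizer_iff]
        intro z hz
        rw [SetLike.mem_coe, h3] at hz
        exact mem_centralizer_singleton_iff.mp hz.2
    exact mem_centralizer_iff.mp h1 x hx
  have hKlt : K < N := lt_of_le_of_ne hKN hKne
  obtain ⟨k, r, hr, hj, hkc⟩ := exists_primary hk0c
  obtain ⟨h1, -⟩ := prime_relIndex h (hKN (pow_mem hk0 k)) hkc (A := K) (hKeq _ (pow_mem hk0 k) hkc ⟨r, hr, hj⟩)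
    (sup_commutator_ne hKlt hsol)
  exact ⟨K, hKn, hKN, hZK, hKab, h1⟩

/-- Case I: two noncentral commuting primary elements for different primes -/
theorem case_one (h : Hyp N) {x y : G} (hxN : x ∈ N) (hx : x ∉ centralizer (N : Set G)) (hyN : y ∈ N)
    (hy : y ∉ centralizer (N : Set G)) (hxy : x * y = y * x) {p q : ℕ} (hp : p.Prime) (hq : q.Prime) (hpq : p ≠ q)
    (hxp : ∃ j, x ^ (p ^ j) = 1) (hyq : ∃ j, y ^ (q ^ j) = 1) : Concl N := by
  have hMxy : centralizer ({x} : Set G) = centralizer ({y} : Set G) :=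
    le_antisymm (coprime_le' h hxN hx hyN hxy hp hq hpq hxp hyq)
      (coprime_le' h hyN hy hxN hxy.symm hq hp hpq.symm hyq hxp)
  set M := centralizer ({x} : Set G) with hM
  have hMc : IsCoatom M := h x hxN hx
  set A := N ⊓ M with hA
  have hAN : A ≤ N := inf_le_left
  have hAM : A ≤ centralizer (M : Set G) := by
    intro a ha
    apply mem_of_primary
    intro k r hr hj
    have hakN : a ^ k ∈ N := pow_mem ha.1 k
    have hakM : a ^ k ∈ M := pow_mem ha.2 k
    have key : M ≤ centralizer ({a ^ k} : Set G) := by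
      by_cases hrp : r = p
      · have hrq : q ≠ r := by rw [hrp]; exact hpq.symm
        rw [hMxy] at hakM ⊢
        rw [mem_centralizer_singleton_iff] at hakM
        exact coprime_le' h hyN hy hakN hakM.symm hq hr hrq hyq hj
      · rw [hM, mem_centralizer_singleton_iff] at hakM
        exact coprime_le' h hxN hx hakN hakM.symm hp hr (Ne.symm hrp) hxp hj
    rw [mem_centralizer_iff]
    intro m hm
    exact mem_centralizer_singleton_iff.mp (key hm)
  have hMA : M ≤ centralizer (A : Set G) := by rwa [le_centralizer_iff]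
  have hxA : x ∈ A := ⟨hxN, by
    show x ∈ centralizer ({x} : Set G)
    rw [mem_centralizer_singleton_iff]⟩
  have hZA : N ⊓ centralizer (N : Set G) ≤ A := by
    intro z hz
    refine ⟨hz.1, ?_⟩
    show z ∈ centralizer ({x} : Set G)
    rw [mem_centralizer_singleton_iff]
    exact (mem_centralizer_iff.mp hz.2 x hxN).symm
  have hAab : ∀ a ∈ A, ∀ b ∈ A, a * b = b * a := fun a ha b hb =>
    mem_centralizer_iff.mp (hAM hb) a ha.2
  have hAne : A ≠ N := by
    intro h1
    apply not_le_of_not_mem hx
    rw [← h1]; exact inf_le_right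
  -- centralizers of noncentral elements of A
  have hCa : ∀ a ∈ A, a ∉ centralizer (N : Set G) → centralizer ({a} : Set G) = M := by
    intro a ha hac
    symm
    apply eq_of_coatom_le hMc
    · intro m hm
      rw [mem_centralizer_singleton_iff]
      exact mem_centralizer_iff.mp (hAM ha) m hm
    · exact (h a ha.1 hac).1
  by_cases hAn : A.Normal
  · -- I-a
    have hMn : M.Normal := by
      have : M = centralizer (A : Set G) := by
        apply le_antisymm hMA
        intro g hg
        show g ∈ centralizer ({x} : Set G)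
        rw [mem_centralizer_singleton_iff]
        exact (mem_centralizer_iff.mp hg x hxA).symm
      rw [this]; infer_instance
    have hMi := H1.Basic.index_prime_of_isCoatom_of_normal hMc
    have hcomm : _root_.commutator G ≤ M := by
      have : Fact (M.index).Prime := ⟨hMi⟩
      have hcyc : IsCyclic (G ⧸ M) := isCyclic_of_prime_card (p := M.index) rfl
      rw [← Subgroup.Normal.quotient_commutative_iff_commutator_le]
      exact hcyc.isMulCommutative
    have hNN : ⁅N, N⁆ ≤ A := by
      refine le_inf (commutator_le_left N N) ?_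
      refine le_trans ?_ hcomm
      rw [_root_.commutator_def]
      exact commutator_mono le_top le_top
    have h1 := prime_relIndex h hxN hx (A := A) hA (by
      rw [sup_eq_right.mpr hNN]; exact hAne)
    exact ⟨A, hAn, hAN, hZA, hAab, h1.1⟩
  · -- I-b
    have hNM : normalizer (M : Set G) = M := by
      by_contra hne
      have h1 : M < normalizer (M : Set G) := lt_of_le_of_ne le_normalizer (Ne.symm hne)
      have h2 := hMc.2 _ h1
      have h3 : M.Normal := normalizer_eq_top_iff.mp h2
      apply hAn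
      rw [hA]; infer_instance
    -- conjugates of A meet A centrally
    have hTI : ∀ g : G, g ∉ M → ∀ a ∈ A, ∀ b ∈ A, a = g * b * g⁻¹ → a ∈ centralizer (N : Set G) := by
      intro g hg a ha b hb e
      by_contra hac
      apply hg
      rw [← hNM, H22.Basic.mem_normalizer_iff_cj]
      have hbc : b ∉ centralizer (N : Set G) := by
        intro hbc
        apply hac
        rw [e]
        have : (centralizer (N : Set G)).Normal := inferInstance
        exact this.conj_mem b hbc g
      have h1 := hCa a ha hac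
      have h2 := hCa b hb hbc
      rw [← h1]
      conv_lhs => rw [h1, ← h2]
      ext z
      rw [H22.Basic.mem_cj, mem_centralizer_singleton_iff, mem_centralizer_singleton_iff, e]
      constructor
      · intro h3
        calc z * (g * b * g⁻¹) = g * ((g⁻¹ * z * g) * b) * g⁻¹ := by group
          _ = g * (b * (g⁻¹ * z * g)) * g⁻¹ := by rw [h3]
          _ = g * b * g⁻¹ * z := by group
      · intro h3
        calc g⁻¹ * z * g * b = g⁻¹ * (z * (g * b * g⁻¹)) * g := by group
          _ = g⁻¹ * (g * b * g⁻¹ * z) * g := by rw [h3]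
          _ = b * (g⁻¹ * z * g) := by group
    let π := QuotientGroup.mk' (center N)
    have hπs : Function.Surjective π := QuotientGroup.mk'_surjective _
    have hπk : π.ker = center N := QuotientGroup.ker_mk' _
    have hπ1 : ∀ n : N, π n = 1 ↔ (n : G) ∈ centralizer (N : Set G) := by
      intro n
      rw [← MonoidHom.mem_ker, hπk, mem_center_iff']
    have hcA : center N ≤ A.subgroupOf N := by
      intro z hz
      rw [mem_subgroupOf]
      exact hZA ⟨z.2, mem_center_iff'.mp hz⟩
    set H := (A.subgroupOf N).map π with hH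
    have hmemH : ∀ n : N, π n ∈ H ↔ (n : G) ∈ A := by
      intro n
      rw [hH, ← mem_comap, comap_map_eq, hπk, sup_eq_left.mpr hcA, mem_subgroupOf]
    -- membership in conjugates of H
    have hmemcH : ∀ n k : N, π k ∈ MulAut.conj (π n) • H ↔ (n : G)⁻¹ * k * n ∈ A := by
      intro n k
      rw [H1.Basic.mem_conj]
      have : (π n)⁻¹ * π k * π n = π (n⁻¹ * k * n) := by simp
      rw [this, hmemH]; rfl
    have hfrob : Cfsg.IsFrobeniusComplement H := by
      refine ⟨?_, ?_, ?_⟩
      · intro h1
        have h2 := (hmemH ⟨x, hxN⟩).mpr hxA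
        rw [h1, mem_bot, hπ1] at h2
        exact hx h2
      · intro h1
        apply hAne
        apply le_antisymm hAN
        intro n hn
        have h2 : π ⟨n, hn⟩ ∈ H := by rw [h1]; trivial
        exact (hmemH _).mp h2
      · intro g hg
        obtain ⟨n, rfl⟩ := hπs g
        rw [eq_bot_iff]
        rintro z ⟨hz1, hz2⟩
        obtain ⟨a, rfl⟩ := hπs z
        rw [mem_bot, hπ1]
        have h1 : (a : G) ∈ A := (hmemH a).mp hz1
        have h2 := (hmemcH n a).mp hz2
        refine hTI n ?_ a h1 _ h2 (by group)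
        intro hnM
        exact hg ((hmemH n).mpr ⟨n.2, hnM⟩)
    obtain ⟨Kb, hKb, hKbn, hcompl⟩ := H9.FrobKer.frobenius H hfrob
    have hKbmem : ∀ z : N ⧸ center N, z ∈ Kb ↔ z = 1 ∨ ∀ g : N ⧸ center N, z ∉ MulAut.conj g • H := by
      intro z
      rw [← SetLike.mem_coe, hKb]; rfl
    set K := (Kb.comap π).map N.subtype with hK
    have hmemK : ∀ n : N, (n : G) ∈ K ↔ π n ∈ Kb := by
      intro n
      rw [hK]
      constructor
      · rintro ⟨m, hm, e⟩
        have : m = n := Subtype.ext e
        rw [← this]; exact hm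
      · intro h1
        exact ⟨n, h1, rfl⟩
    have hKN : K ≤ N := map_subtype_le _
    have hKbH : ∀ z ∈ Kb, ∀ g : N ⧸ center N, z ∈ MulAut.conj g • H → z = 1 := by
      intro z hz g hzg
      rcases (hKbmem z).mp hz with h1 | h1
      · exact h1
      · exact absurd hzg (h1 g)
    have hMnA : M ≤ normalizer (A : Set G) := hMA.trans (centralizer_le_normalizer _)
    have hKn : K.Normal := by
      constructor
      intro k hk g
      have hkN := hKN hk
      have hgkN : g * k * g⁻¹ ∈ N := hNn.conj_mem k hkN g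
      have hk' : π ⟨k, hkN⟩ ∈ Kb := (hmemK ⟨k, hkN⟩).mp hk
      rw [show g * k * g⁻¹ = ((⟨g * k * g⁻¹, hgkN⟩ : N) : G) from rfl, hmemK, hKbmem]
      by_contra hcon
      push Not at hcon
      obtain ⟨hcon1, gb, hgb⟩ := hcon
      obtain ⟨n, rfl⟩ := hπs gb
      rw [hmemcH] at hgb
      simp only at hgb
      obtain ⟨n', hn', m, hm, e⟩ := exists_mul h hxN hx (g⁻¹ * n)
      have h1 : n'⁻¹ * k * n' ∈ A := by
        have h2 : (n : G)⁻¹ * (g * k * g⁻¹) * n = m⁻¹ * (n'⁻¹ * k * n') * m := by
          have h3 : (n : G) = g * (n' * m) := by rw [e]; group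
          rw [h3]; group
        rw [h2] at hgb
        have h3 := (mem_normalizer_iff''.mp (hMnA hm) (n'⁻¹ * k * n'))
        rw [h3]; exact hgb
      have h2 : π ⟨k, hkN⟩ ∈ MulAut.conj (π ⟨n', hn'⟩) • H := (hmemcH _ _).mpr h1
      have h3 := hKbH _ hk' _ h2
      rw [hπ1] at h3
      apply hcon1
      rw [hπ1]
      have : (centralizer (N : Set G)).Normal := inferInstance
      exact this.conj_mem _ h3 g
    have hZK : N ⊓ centralizer (N : Set G) ≤ K := by
      intro z hz
      rw [show z = ((⟨z, hz.1⟩ : N) : G) from rfl, hmemK]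
      have h1 : π ⟨z, hz.1⟩ = 1 := (hπ1 _).mpr hz.2
      rw [h1]; exact one_mem _
    have hKne : K ≠ N := by
      intro h1
      apply hx
      have h2 : x ∈ K := by rw [h1]; exact hxN
      have h3 := (hmemK ⟨x, hxN⟩).mp h2
      have h4 := hKbH _ h3 1 (by
        rw [map_one, one_smul]; exact (hmemH ⟨x, hxN⟩).mpr hxA)
      exact (hπ1 _).mp h4
    have hKcent : ∀ k ∈ K, k ∉ centralizer (N : Set G) → N ⊓ centralizer ({k} : Set G) ≤ K := by
      intro k hk hkc c hc
      have hkN := hKN hk
      have hk' : π ⟨k, hkN⟩ ∈ Kb := (hmemK ⟨k, hkN⟩).mp hk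
      rw [show c = ((⟨c, hc.1⟩ : N) : G) from rfl, hmemK, hKbmem]
      by_contra hcon
      push Not at hcon
      obtain ⟨hcon1, gb, hgb⟩ := hcon
      obtain ⟨n, rfl⟩ := hπs gb
      -- c ∈ H^n and commutes with k
      have hck : c * k = k * c := mem_centralizer_singleton_iff.mp hc.2
      rw [hmemcH] at hgb
      simp only at hgb
      set a := (n : G)⁻¹ * c * n with ha
      set l := (n : G)⁻¹ * k * n with hl
      have hlN : l ∈ N := mul_mem (mul_mem (inv_mem n.2) hkN) n.2
      have hal : a = l * a * l⁻¹ := by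
        rw [ha, hl]
        calc (n : G)⁻¹ * c * n = (n : G)⁻¹ * (c * k) * k⁻¹ * n := by group
          _ = (n : G)⁻¹ * (k * c) * k⁻¹ * n := by rw [hck]
          _ = (n : G)⁻¹ * k * n * ((n : G)⁻¹ * c * n) * ((n : G)⁻¹ * k * n)⁻¹ := by group
      by_cases hlM : l ∈ M
      · have h1 : l ∈ A := ⟨hlN, hlM⟩
        have h2 : π ⟨k, hkN⟩ ∈ MulAut.conj (π n) • H := (hmemcH _ _).mpr h1
        have h3 := hKbH _ hk' _ h2
        exact hkc ((hπ1 _).mp h3)
      · have h1 := hTI l hlM a hgb a hgb hal
        apply hcon1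
        rw [hπ1]
        have h2 : c = (n : G) * a * (n : G)⁻¹ := by rw [ha]; group
        show c ∈ centralizer (N : Set G)
        rw [h2]
        have : (centralizer (N : Set G)).Normal := inferInstance
        exact this.conj_mem _ h1 _
    -- solvability of N / K
    have hsol : Group.IsSolvable (↥N ⧸ K.subgroupOf N) := by
      let _ : CommGroup A := { (inferInstance : Group A) with
        mul_comm := fun a b => Subtype.ext (hAab a a.2 b b.2) }
      have hA' : Group.IsSolvable A := inferInstance
      let f : A →* (↥N ⧸ K.subgroupOf N) := (QuotientGroup.mk' (K.subgroupOf N)).comp (inclusion hAN)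
      refine Group.isSolvable_of_surjective (f := f) ?_
      intro q
      obtain ⟨n, rfl⟩ := QuotientGroup.mk'_surjective _ q
      have h1 : π n ∈ Kb ⊔ H := by rw [hcompl.sup_eq_top]; trivial
      rw [← SetLike.mem_coe, Subgroup.normal_mul] at h1
      obtain ⟨kb, hkb, hb, hhb, e⟩ := h1
      obtain ⟨a, ha, rfl⟩ := hhb
      refine ⟨⟨a, ha⟩, ?_⟩
      apply QuotientGroup.eq.mpr
      rw [mem_subgroupOf, hmemK]
      have h2 : π ((inclusion hAN ⟨a, ha⟩)⁻¹ * n) = (π a)⁻¹ * kb * (π a)⁻¹⁻¹ := by
        have : inclusion hAN ⟨(a : G), ha⟩ = a := rfl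
        rw [this, map_mul, map_inv, ← e, inv_inv, mul_assoc]
      rw [h2]
      exact hKbn.conj_mem kb hkb _
    obtain ⟨k0, hk0, hk0c⟩ : ∃ k ∈ K, k ∉ centralizer (N : Set G) := by
      by_contra hcon
      push Not at hcon
      have h1 : Kb = ⊥ := by
        rw [eq_bot_iff]
        intro z hz
        obtain ⟨n, rfl⟩ := hπs z
        rw [mem_bot, hπ1]
        exact hcon _ ((hmemK n).mpr hz)
      have h2 := hcompl.sup_eq_top
      rw [h1, bot_sup_eq] at h2
      exact hfrob.2.1 h2
    exact concl_of h hKN hKne hZK (fun k hk hkc _ => hKcent k hk hkc) hsol hk0 hk0c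

end Cfsg.Agent.H22.RelMax
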