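import Mathlib
import Cfsg.Prelude.Def_KGroupFacts

/-!
Schur multiplier via free presentations.  For `f : F →* Q` with `F` free and f.g., `Q` finite and `f` onto,
`E f = F / [ker f, F]`, `π f : E f → Q`, `M f = ker (π f) ⊓ (E f)'` is the Schur multiplier of `Q`.
-/

set_option autoImplicit false
open Cfsg

namespace Cfsg.Agent.H22.Schur

open Subgroup
open scoped commutatorElement

universe u v w

theorem comm_mul_central {E : Type*} [Group E] (g h z w : E) (hz : z ∈ center E) (hw : w ∈ center E) :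
    ⁅g * z, h * w⁆ = ⁅g, h⁆ := by
  have hz' := mem_center_iff.mp hz
  have hw' := mem_center_iff.mp hw
  have e1 : ⁅g * z, h * w⁆ = ⁅g, h * w⁆ := by
    simp only [commutatorElement_def, mul_inv_rev]
    calc g * z * (h * w) * (z⁻¹ * g⁻¹) * (w⁻¹ * h⁻¹)
        = g * (z * (h * w)) * (z⁻¹ * g⁻¹) * (w⁻¹ * h⁻¹) := by group
      _ = g * ((h * w) * z) * (z⁻¹ * g⁻¹) * (w⁻¹ * h⁻¹) := by rw [hz']
      _ = _ := by group
  rw [e1]
  simp only [commutatorElement_def, mul_inv_rev]
  calc g * (h * w) * g⁻¹ * (w⁻¹ * h⁻¹) = g * h * (w * g⁻¹) * (w⁻¹ * h⁻¹) := by group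
    _ = g * h * (g⁻¹ * w) * (w⁻¹ * h⁻¹) := by rw [← hw' g⁻¹]
    _ = _ := by group

/-- commutator subgroup is finite if the centre has finite index -/
theorem finite_commutator (E : Type*) [Group E] [(center E).FiniteIndex] : Finite (_root_.commutator E) := by
  have : Finite (commutatorSet E) := by
    have hsurj : ∀ x : commutatorSet E, ∃ q : (E ⧸ center E) × (E ⧸ center E), ⁅q.1.out, q.2.out⁆ = (x : E) := by
      rintro ⟨x, g, h, rfl⟩
      refine ⟨(g, h), ?_⟩
      obtain ⟨z, hz⟩ := QuotientGroup.mk_out_eq_mul (center E) g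
      obtain ⟨w, hw⟩ := QuotientGroup.mk_out_eq_mul (center E) h
      simp only [hz, hw]
      exact comm_mul_central _ _ _ _ z.2 w.2
    choose q hq using hsurj
    refine Finite.of_injective q ?_
    intro x y hxy
    apply Subtype.ext
    rw [← hq x, ← hq y, hxy]
  infer_instance

theorem comm_le_of_sup_central {X : Type*} [Group X] (H Z : Subgroup X) (hZ : Z ≤ center X) (h : H ⊔ Z = ⊤) :
    _root_.commutator X ≤ ⁅H, H⁆ := by
  have : Z.Normal := by
    constructor
    intro n hn g
    have := mem_center_iff.mp (hZ hn) g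
    rw [this]; simpa using hn
  have key : ∀ x : X, ∃ a ∈ H, ∃ z ∈ Z, a * z = x := by
    intro x
    have hx : x ∈ H ⊔ Z := by rw [h]; trivial
    exact Subgroup.mem_sup_of_normal_right.mp hx
  rw [_root_.commutator_def, Subgroup.commutator_le]
  intro x _ y _
  obtain ⟨a, ha, z, hz, rfl⟩ := key x
  obtain ⟨b, hb, w, hw, rfl⟩ := key y
  rw [comm_mul_central _ _ _ _ (hZ hz) (hZ hw)]
  exact commutator_mem_commutator ha hb

/-- the abelianization of a free group is torsion free -/
theorem mem_commutator_of_pow {F : Type*} [Group F] [IsFreeGroup F] (x : F) (k : ℕ) (hk : k ≠ 0)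
    (hx : x ^ k ∈ _root_.commutator F) : x ∈ _root_.commutator F := by
  -- hom to free abelian group
  let e : F ≃* FreeGroup (IsFreeGroup.Generators F) := IsFreeGroup.toFreeGroup F
  have h1 : (Abelianization.of (e x) : Abelianization (FreeGroup (IsFreeGroup.Generators F))) = 1 := by
    have h2 : (Abelianization.of (e x) : Abelianization (FreeGroup (IsFreeGroup.Generators F))) ^ k = 1 := by
      rw [← map_pow, ← map_pow]
      have : (Abelianization.of.comp e.toMonoidHom) (x ^ k) = 1 := by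
        have h3 : _root_.commutator F ≤ (Abelianization.of.comp e.toMonoidHom).ker :=
          Abelianization.commutator_subset_ker _
        exact h3 hx
      exact this
    let a : FreeAbelianGroup (IsFreeGroup.Generators F) := Additive.ofMul (Abelianization.of (e x))
    have h4 : k • a = 0 := congrArg Additive.ofMul h2
    have h5 : (FreeAbelianGroup.equivFinsupp _) a = 0 := by
      have h6 : k • (FreeAbelianGroup.equivFinsupp _) a = 0 := by rw [← map_nsmul, h4, map_zero]
      ext i
      have h7 := DFunLike.congr_fun h6 i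
      simp only [Finsupp.smul_apply, Finsupp.coe_zero, Pi.zero_apply, nsmul_eq_mul] at h7 ⊢
      have hk' : (k : ℤ) ≠ 0 := by exact_mod_cast hk
      exact (mul_eq_zero.mp h7).resolve_left hk'
    have h8 : a = 0 := (EmbeddingLike.map_eq_zero_iff (f := FreeAbelianGroup.equivFinsupp _)).mp h5
    exact h8
  have h2 : e x ∈ _root_.commutator (FreeGroup (IsFreeGroup.Generators F)) := by
    rw [← Abelianization.ker_of]
    exact h1
  have h3 : (_root_.commutator F).map e.toMonoidHom = _root_.commutator (FreeGroup (IsFreeGroup.Generators F)) := by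
    rw [_root_.commutator_def, _root_.commutator_def, Subgroup.map_commutator,
      Subgroup.map_top_of_surjective _ e.surjective]
  rw [← h3] at h2
  obtain ⟨y, hy, hyx⟩ := h2
  have : y = x := e.injective hyx
  rwa [← this]


theorem compl_aux (B : Type*) [AddCommGroup B] [Module.Finite ℤ B] (M L : Submodule ℤ B) (h : L ⊔ M = ⊤)
    (htf : ∀ x : B, ∀ k : ℤ, k ≠ 0 → k • x ∈ M → x ∈ M) :
    ∃ K : Submodule ℤ B, K ≤ L ∧ K ⊓ M = ⊥ ∧ K ⊔ M = ⊤ := by
  have htf' : Module.IsTorsionFree ℤ (B ⧸ M) := by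
    rw [Module.isTorsionFree_iff_smul_eq_zero]
    intro k x
    obtain ⟨x, rfl⟩ := Submodule.mkQ_surjective M x
    intro hx
    by_contra hcon
    push Not at hcon
    have h1 : k • x ∈ M := by
      rw [← Submodule.Quotient.mk_eq_zero, Submodule.Quotient.mk_smul]; exact hx
    exact hcon.2 ((Submodule.Quotient.mk_eq_zero M).mpr (htf x k hcon.1 h1))
  let f : L →ₗ[ℤ] B ⧸ M := M.mkQ.comp L.subtype
  have hf : Function.Surjective f := by
    intro y
    obtain ⟨y, rfl⟩ := Submodule.mkQ_surjective M y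
    have : y ∈ L ⊔ M := by rw [h]; trivial
    obtain ⟨l, hl, m, hm, rfl⟩ := Submodule.mem_sup.mp this
    refine ⟨⟨l, hl⟩, ?_⟩
    show M.mkQ l = M.mkQ (l + m)
    rw [map_add]
    have : M.mkQ m = 0 := (Submodule.Quotient.mk_eq_zero M).mpr hm
    rw [this, add_zero]
  obtain ⟨s, hs⟩ := Module.projective_lifting_property f LinearMap.id hf
  refine ⟨LinearMap.range (L.subtype.comp s), ?_, ?_, ?_⟩
  · rintro x ⟨y, rfl⟩
    exact (s y).2
  · rw [eq_bot_iff]
    rintro x ⟨⟨y, rfl⟩, hx⟩
    have h1 : f (s y) = y := LinearMap.congr_fun hs y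
    have h2 : f (s y) = 0 := (Submodule.Quotient.mk_eq_zero M).mpr hx
    rw [h2] at h1
    rw [Submodule.mem_bot, ← h1, map_zero]
  · rw [eq_top_iff]
    intro x _
    have h1 : f (s (M.mkQ x)) = M.mkQ x := LinearMap.congr_fun hs _
    have h2 : x - (s (M.mkQ x) : B) ∈ M := by
      rw [← Submodule.Quotient.mk_eq_zero, Submodule.Quotient.mk_sub]
      exact sub_eq_zero.mpr h1.symm
    have : x = (s (M.mkQ x) : B) + (x - (s (M.mkQ x) : B)) := by abel
    rw [this]
    exact Submodule.add_mem_sup ⟨_, rfl⟩ h2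

theorem compl_comm (A : Type*) [CommGroup A] [Group.FG A] (M L : Subgroup A) (h : L ⊔ M = ⊤)
    (htf : ∀ x : A, ∀ k : ℕ, k ≠ 0 → x ^ k ∈ M → x ∈ M) :
    ∃ K : Subgroup A, K ≤ L ∧ K ⊓ M = ⊥ ∧ K ⊔ M = ⊤ := by
  have : Module.Finite ℤ (Additive A) := Module.Finite.iff_addGroup_fg.mpr inferInstance
  let Φ : Subgroup A ≃o Submodule ℤ (Additive A) := Subgroup.toAddSubgroup.trans AddSubgroup.toIntSubmodule
  have hmem : ∀ (H : Subgroup A) (x : A), Additive.ofMul x ∈ Φ H ↔ x ∈ H := fun H x => Iff.rfl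
  have key : ∀ (x : Additive A) (k : ℤ), k ≠ 0 → k • x ∈ Φ M → x ∈ Φ M := by
    intro x k hk hx
    have h4 : (Additive.toMul x) ^ k ∈ M := hx
    have h5 : (Additive.toMul x) ^ k.natAbs ∈ M := by
      rcases Int.natAbs_eq k with h | h
      · rw [h, zpow_natCast] at h4; exact h4
      · rw [h, zpow_neg, zpow_natCast, inv_mem_iff] at h4; exact h4
    exact htf _ _ (by simpa using hk) h5
  obtain ⟨K, h1, h2, h3⟩ := compl_aux (Additive A) (Φ M) (Φ L) (by rw [← Φ.map_sup, h, Φ.map_top]) key
  · refine ⟨Φ.symm K, ?_, ?_, ?_⟩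
    · rw [← Φ.le_iff_le]; simpa using h1
    · apply Φ.injective; rw [Φ.map_inf, Φ.apply_symm_apply, h2, Φ.map_bot]
    · apply Φ.injective; rw [Φ.map_sup, Φ.apply_symm_apply, h3, Φ.map_top]

theorem compl_central {E : Type*} [Group E] (N M L : Subgroup E) (hN : N ≤ center E) [hfg : Group.FG N] (hM : M ≤ N)
    (hL : L ≤ N) (h : L ⊔ M = N) (htf : ∀ x ∈ N, ∀ k : ℕ, k ≠ 0 → x ^ k ∈ M → x ∈ M) :
    ∃ K : Subgroup E, K ≤ L ∧ K ⊓ M = ⊥ ∧ K ⊔ M = N := by
  let _ : CommGroup N := { (inferInstance : Group N) with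
    mul_comm := fun a b => Subtype.ext (mem_center_iff.mp (hN b.2) a) }
  have hsup : L.subgroupOf N ⊔ M.subgroupOf N = ⊤ := by
    rw [← subgroupOf_sup hL hM, h, subgroupOf_self]
  obtain ⟨K, h1, h2, h3⟩ := compl_comm N (M.subgroupOf N) (L.subgroupOf N) hsup (fun x k hk hx => htf x x.2 k hk hx)
  · refine ⟨K.map N.subtype, ?_, ?_, ?_⟩
    · rintro x ⟨y, hy, rfl⟩
      exact h1 hy
    · rw [eq_bot_iff]
      rintro x ⟨⟨y, hy, rfl⟩, hx⟩
      have : y ∈ K ⊓ M.subgroupOf N := mem_inf.mpr ⟨hy, hx⟩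
      rw [h2, mem_bot] at this
      rw [this]; simp
    · apply le_antisymm
      · exact sup_le (by rintro x ⟨y, hy, rfl⟩; exact y.2) hM
      · intro x hx
        have : (⟨x, hx⟩ : N) ∈ K ⊔ M.subgroupOf N := by rw [h3]; trivial
        have h4 := mem_map_of_mem N.subtype this
        rw [Subgroup.map_sup] at h4
        have h5 : K.map N.subtype ⊔ (M.subgroupOf N).map N.subtype ≤ K.map N.subtype ⊔ M :=
          sup_le_sup le_rfl (by rintro y ⟨z, hz, rfl⟩; exact hz)
        exact h5 h4

section Defs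

variable {F : Type v} [Group F] {Q : Type u} [Group Q] (f : F →* Q)

/-- `[ker f, F]` -/
abbrev B : Subgroup F := ⁅f.ker, (⊤ : Subgroup F)⁆

theorem B_le_ker : B f ≤ f.ker := commutator_le_left _ _

theorem B_le_comm : B f ≤ _root_.commutator F := by
  rw [_root_.commutator_def]
  exact commutator_mono le_top le_rfl

/-- `F / [ker f, F]` -/
abbrev E : Type v := F ⧸ B f

/-- the projection onto `Q` -/
def π : E f →* Q := QuotientGroup.lift (B f) f (fun _ hx => B_le_ker f hx)

@[simp] theorem π_mk (x : F) : π f (QuotientGroup.mk' (B f) x) = f x := rfl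

theorem π_surjective (hf : Function.Surjective f) : Function.Surjective (π f) := by
  intro q
  obtain ⟨x, rfl⟩ := hf q
  exact ⟨QuotientGroup.mk' _ x, rfl⟩

theorem ker_π : (π f).ker = f.ker.map (QuotientGroup.mk' (B f)) := by
  ext x
  obtain ⟨x, rfl⟩ := QuotientGroup.mk'_surjective _ x
  constructor
  · intro h
    exact ⟨x, h, rfl⟩
  · rintro ⟨y, hy, hyx⟩
    rw [← hyx]; exact hy

theorem ker_π_le_center : (π f).ker ≤ center (E f) := by
  rw [ker_π]
  rintro x ⟨y, hy, rfl⟩
  rw [mem_center_iff]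
  intro g
  obtain ⟨g, rfl⟩ := QuotientGroup.mk'_surjective _ g
  rw [← map_mul, ← map_mul, ← div_eq_one, ← map_div]
  have : g * y / (y * g) ∈ B f := by
    have h1 : ⁅g, y⁆ ∈ B f := by
      rw [← commutatorElement_inv]
      exact inv_mem (commutator_mem_commutator hy (mem_top g))
    have h2 : g * y / (y * g) = ⁅g, y⁆ := by
      rw [commutatorElement_def, div_eq_mul_inv, mul_inv_rev]; group
    rw [h2]; exact h1
  exact (QuotientGroup.eq_one_iff _).mpr this

/-- the multiplier -/
def M : Subgroup (E f) := (π f).ker ⊓ _root_.commutator (E f)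

theorem M_le_ker : M f ≤ (π f).ker := inf_le_left

theorem M_le_comm : M f ≤ _root_.commutator (E f) := inf_le_right

theorem M_le_center : M f ≤ center (E f) := (M_le_ker f).trans (ker_π_le_center f)

instance : CommGroup (M f) := { (inferInstance : Group (M f)) with
  mul_comm := fun a b => Subtype.ext (mem_center_iff.mp (M_le_center f b.2) a) }

theorem comm_E : _root_.commutator (E f) = (_root_.commutator F).map (QuotientGroup.mk' (B f)) := by
  rw [_root_.commutator_def, _root_.commutator_def, Subgroup.map_commutator,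
    Subgroup.map_top_of_surjective _ (QuotientGroup.mk'_surjective _)]

theorem mk_mem_comm {x : F} : QuotientGroup.mk' (B f) x ∈ _root_.commutator (E f) ↔ x ∈ _root_.commutator F := by
  rw [comm_E]
  constructor
  · rintro ⟨y, hy, hyx⟩
    have h1 : y⁻¹ * x ∈ B f := QuotientGroup.eq.mp hyx
    have := mul_mem hy (B_le_comm f h1)
    simpa using this
  · intro h; exact ⟨x, h, rfl⟩

theorem mk_mem_M {x : F} : QuotientGroup.mk' (B f) x ∈ M f ↔ x ∈ f.ker ∧ x ∈ _root_.commutator F := by
  unfold M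
  rw [Subgroup.mem_inf, mk_mem_comm]
  rfl

theorem finiteIndex_center [Finite Q] : (center (E f)).FiniteIndex := by
  have : (π f).ker.FiniteIndex := by
    constructor
    rw [Subgroup.index_ker]
    exact Nat.card_pos.ne'
  exact Subgroup.finiteIndex_of_le (ker_π_le_center f)

theorem finite_comm [Finite Q] : Finite (_root_.commutator (E f)) := by
  have := finiteIndex_center f
  exact finite_commutator _

instance finite_M [Finite Q] : Finite (M f) := by
  have := finite_comm f
  exact Finite.of_injective (Subgroup.inclusion (M_le_comm f)) (Subgroup.inclusion_injective _)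

theorem fg_ker [Finite Q] [Group.FG F] : Group.FG (π f).ker := by
  have : (π f).ker.FiniteIndex := by
    constructor
    rw [Subgroup.index_ker]
    exact Nat.card_pos.ne'
  infer_instance

theorem torsion [IsFreeGroup F] (x : E f) (_hx : x ∈ (π f).ker) (k : ℕ) (hk : k ≠ 0) (h : x ^ k ∈ M f) : x ∈ M f := by
  refine Subgroup.mem_inf.mpr ⟨_hx, ?_⟩
  obtain ⟨x, rfl⟩ := QuotientGroup.mk'_surjective _ x
  rw [← map_pow] at h
  rw [mk_mem_comm]
  exact mem_commutator_of_pow x k hk ((mk_mem_M f).mp h).2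

/-- existence of complements -/
theorem exists_compl [Finite Q] [Group.FG F] [IsFreeGroup F] (L : Subgroup (E f)) (hL : L ≤ (π f).ker)
    (h : L ⊔ M f = (π f).ker) : ∃ K : Subgroup (E f), K ≤ L ∧ K ⊓ M f = ⊥ ∧ K ⊔ M f = (π f).ker := by
  have := fg_ker f
  exact compl_central (π f).ker (M f) L (ker_π_le_center f) (M_le_ker f) hL h (torsion f)

end Defs

section Cover

variable {F : Type v} [Group F] {Q : Type u} [Group Q] {f : F →* Q} (hf : Function.Surjective f)
  {K : Subgroup (E f)} (hK : K ≤ (π f).ker)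

theorem normal_of_le (hK : K ≤ (π f).ker) : K.Normal := by
  constructor
  intro n hn g
  have := mem_center_iff.mp (ker_π_le_center f (hK hn)) g
  rw [this]; simpa using hn

/-- the quotient `E/K → Q` -/
def σ (K : Subgroup (E f)) [K.Normal] (hK : K ≤ (π f).ker) : (E f) ⧸ K →* Q :=
  QuotientGroup.lift K (π f) (fun _ hx => hK hx)

theorem σ_mk [K.Normal] (x : E f) : σ K hK (QuotientGroup.mk' K x) = π f x := rfl

theorem ker_σ [K.Normal] : (σ K hK).ker = (π f).ker.map (QuotientGroup.mk' K) := by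
  ext x
  obtain ⟨x, rfl⟩ := QuotientGroup.mk'_surjective _ x
  constructor
  · intro h
    exact ⟨x, h, rfl⟩
  · rintro ⟨y, hy, hyx⟩
    rw [← hyx]; exact hy

theorem σ_stem [K.Normal] (hf : Function.Surjective f) (hKM : K ⊔ M f = (π f).ker) :
    IsStemExtension (σ K hK) := by
  refine ⟨?_, ?_, ?_⟩
  · intro q
    obtain ⟨x, rfl⟩ := π_surjective f hf q
    exact ⟨QuotientGroup.mk' K x, rfl⟩
  · rw [ker_σ]
    rintro x ⟨y, hy, rfl⟩
    rw [mem_center_iff]
    intro g
    obtain ⟨g, rfl⟩ := QuotientGroup.mk'_surjective _ g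
    rw [← map_mul, ← map_mul, mem_center_iff.mp (ker_π_le_center f hy) g]
  · rw [ker_σ, ← hKM, Subgroup.map_sup]
    have h1 : K.map (QuotientGroup.mk' K) = ⊥ := by
      rw [Subgroup.map_eq_bot_iff, QuotientGroup.ker_mk']
    rw [h1, bot_sup_eq]
    have h2 : _root_.commutator (E f ⧸ K) = (_root_.commutator (E f)).map (QuotientGroup.mk' K) := by
      rw [_root_.commutator_def, _root_.commutator_def, Subgroup.map_commutator,
        Subgroup.map_top_of_surjective _ (QuotientGroup.mk'_surjective _)]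
    rw [h2]
    exact Subgroup.map_mono (M_le_comm f)

/-- restriction of the quotient map to the multiplier -/
def θ (K : Subgroup (E f)) [K.Normal] (hK : K ≤ (π f).ker) : M f →* (σ K hK).ker where
  toFun x := ⟨QuotientGroup.mk' K x, by
    rw [ker_σ]; exact ⟨x, M_le_ker f x.2, rfl⟩⟩
  map_one' := rfl
  map_mul' _ _ := rfl

theorem θ_bij [K.Normal] (hKM : K ⊔ M f = (π f).ker) (hKM' : K ⊓ M f = ⊥) :
    Function.Bijective (θ K hK) := by
  constructor
  · rw [injective_iff_map_eq_one]
    rintro ⟨x, hx⟩ h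
    have h1 : x ∈ K := (QuotientGroup.eq_one_iff _).mp (congrArg Subtype.val h)
    have : x ∈ K ⊓ M f := mem_inf.mpr ⟨h1, hx⟩
    rw [hKM', mem_bot] at this
    exact Subtype.ext this
  · rintro ⟨x, hx⟩
    have hx' := hx
    rw [ker_σ, ← hKM, Subgroup.map_sup] at hx'
    have h1 : K.map (QuotientGroup.mk' K) = ⊥ := by
      rw [Subgroup.map_eq_bot_iff, QuotientGroup.ker_mk']
    rw [h1, bot_sup_eq] at hx'
    obtain ⟨y, hy, hyx⟩ := hx'
    exact ⟨⟨y, hy⟩, Subtype.ext hyx⟩

theorem finite_quot (hK : K ≤ (π f).ker) [Finite Q] [K.Normal] (hKM : K ⊔ M f = (π f).ker) (hKM' : K ⊓ M f = ⊥) :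
    Finite (E f ⧸ K) := by
  have h1 : Finite (σ K hK).ker := by
    have := θ_bij hK hKM hKM'
    exact Finite.of_surjective _ this.2
  have h2 : (σ K hK).ker.FiniteIndex := by
    constructor
    rw [Subgroup.index_ker]
    exact Nat.card_pos.ne'
  exact Finite.of_equiv _ (Subgroup.groupEquivQuotientProdSubgroup (s := (σ K hK).ker)).symm

theorem card_quot (hK : K ≤ (π f).ker) [Finite Q] (hf : Function.Surjective f) [K.Normal] (hKM : K ⊔ M f = (π f).ker)
    (hKM' : K ⊓ M f = ⊥) : Nat.card (E f ⧸ K) = Nat.card Q * Nat.card (M f) := by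
  have h1 : Nat.card (σ K hK).ker = Nat.card (M f) := (Nat.card_congr (Equiv.ofBijective _ (θ_bij hK hKM hKM'))).symm
  have h2 : (σ K hK).ker.index = Nat.card Q := by
    rw [Subgroup.index_ker]
    have : (σ K hK).range = ⊤ := MonoidHom.range_eq_top.mpr (σ_stem hK hf hKM).1
    rw [this, Subgroup.card_top]
  rw [← h1, ← h2, mul_comm, Subgroup.card_mul_index]

end Cover

section Lift

variable {F : Type v} [Group F] {Q : Type u} [Group Q] (f : F →* Q)

/-- free groups lift -/
theorem exists_lift [IsFreeGroup F] {X : Type w} [Group X] {Q' : Type*} [Group Q'] (τ : X →* Q')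
    (hτ : Function.Surjective τ) (h : Q →* Q') : ∃ g : F →* X, τ.comp g = h.comp f := by
  choose s hs using hτ
  refine ⟨IsFreeGroup.lift (fun a => s (h (f (IsFreeGroup.of a)))), ?_⟩
  apply IsFreeGroup.ext_hom
  intro a
  simp only [MonoidHom.comp_apply, IsFreeGroup.lift_of, hs]

theorem B_le_ker_lift {X : Type w} [Group X] {Q' : Type*} [Group Q'] (τ : X →* Q')
    (hc : τ.ker ≤ center X) (h : Q →* Q') (g : F →* X) (hg : τ.comp g = h.comp f) : B f ≤ g.ker := by
  rw [Subgroup.commutator_le]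
  intro x hx y _
  rw [MonoidHom.mem_ker]
  rw [map_commutatorElement, commutatorElement_eq_one_iff_mul_comm]
  have h1 : g x ∈ τ.ker := by
    rw [MonoidHom.mem_ker]
    have := DFunLike.congr_fun hg x
    simp only [MonoidHom.comp_apply] at this
    rw [this, MonoidHom.mem_ker.mp hx, map_one]
  exact (mem_center_iff.mp (hc h1) (g y)).symm

/-- lifting to `E f` -/
theorem exists_lift_E [IsFreeGroup F] {X : Type w} [Group X] {Q' : Type*} [Group Q'] (τ : X →* Q')
    (hτ : Function.Surjective τ) (hc : τ.ker ≤ center X) (h : Q →* Q') :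
    ∃ g : E f →* X, τ.comp g = h.comp (π f) := by
  obtain ⟨g, hg⟩ := exists_lift f τ hτ h
  refine ⟨QuotientGroup.lift _ g (B_le_ker_lift f τ hc h g hg), ?_⟩
  ext x
  exact DFunLike.congr_fun hg x

/-- two lifts agree on the commutator subgroup -/
theorem lift_eq_on_comm {E : Type v} [Group E] {X : Type w} [Group X] {Q' : Type*} [Group Q'] (τ : X →* Q')
    (hc : τ.ker ≤ center X) (g₁ g₂ : E →* X) (h : τ.comp g₁ = τ.comp g₂) (x : E)
    (hx : x ∈ _root_.commutator E) : g₁ x = g₂ x := by
  have hz : ∀ y, (g₂ y)⁻¹ * g₁ y ∈ center X := by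
    intro y
    apply hc
    rw [MonoidHom.mem_ker, map_mul, map_inv]
    have := DFunLike.congr_fun h y
    simp only [MonoidHom.comp_apply] at this
    rw [this, inv_mul_cancel]
  have h1 : _root_.commutator E ≤ g₁.eqLocus g₂ := by
    rw [_root_.commutator_def, Subgroup.commutator_le]
    intro a _ b _
    show g₁ ⁅a, b⁆ = g₂ ⁅a, b⁆
    rw [map_commutatorElement, map_commutatorElement]
    have e1 : g₁ a = g₂ a * ((g₂ a)⁻¹ * g₁ a) := by group
    have e2 : g₁ b = g₂ b * ((g₂ b)⁻¹ * g₁ b) := by group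
    rw [e1, e2]
    exact comm_mul_central _ _ _ _ (hz a) (hz b)
  exact h1 hx

/-- the image of a lift covers the kernel of a stem extension -/
theorem lift_surj {E : Type v} [Group E] {Q : Type u} [Group Q] {X : Type w} [Group X] (p : E →* Q)
    (hp : Function.Surjective p) (τ : X →* Q) (hτ : IsStemExtension τ) (g : E →* X) (hg : τ.comp g = p) :
    Function.Surjective g := by
  obtain ⟨hs, hc, hd⟩ := hτ
  have h1 : g.range ⊔ τ.ker = ⊤ := by
    rw [eq_top_iff]
    intro x _
    obtain ⟨e, he⟩ := hp (τ x)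
    have h2 : (g e)⁻¹ * x ∈ τ.ker := by
      rw [MonoidHom.mem_ker, map_mul, map_inv, ← he]
      have := DFunLike.congr_fun hg e
      simp only [MonoidHom.comp_apply] at this
      rw [this, inv_mul_cancel]
    have : x = g e * ((g e)⁻¹ * x) := by group
    rw [this]
    exact mul_mem (mem_sup_left ⟨e, rfl⟩) (mem_sup_right h2)
  have h2 := comm_le_of_sup_central g.range τ.ker hc h1
  have h3 : τ.ker ≤ g.range := (hd.trans h2).trans (Subgroup.commutator_le_self _)
  rw [sup_eq_left.mpr h3] at h1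
  exact MonoidHom.range_eq_top.mp h1

/-- every stem extension's kernel is an image of the multiplier -/
theorem lift_ker_surj (hf : Function.Surjective f) {X : Type w} [Group X] (τ : X →* Q) (hτ : IsStemExtension τ)
    (g : E f →* X) (hg : τ.comp g = π f) (z : X) (hz : z ∈ τ.ker) : ∃ m ∈ M f, g m = z := by
  have hs := lift_surj (π f) (π_surjective f hf) τ hτ g hg
  have h1 : z ∈ (_root_.commutator (E f)).map g := by
    have : (_root_.commutator (E f)).map g = _root_.commutator X := by
      rw [_root_.commutator_def, _root_.commutator_def, Subgroup.map_commutator,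
        Subgroup.map_top_of_surjective _ hs]
    rw [this]; exact hτ.2.2 hz
  obtain ⟨m, hm, rfl⟩ := h1
  refine ⟨m, Subgroup.mem_inf.mpr ⟨?_, hm⟩, rfl⟩
  rw [MonoidHom.mem_ker, ← hg]
  exact hz

/-- for an arbitrary central extension: the image of the multiplier is `ker τ ⊓ X'` -/
theorem lift_comm_surj (hf : Function.Surjective f) {X : Type w} [Group X] (τ : X →* Q) (hc : τ.ker ≤ center X)
    (g : E f →* X) (hg : τ.comp g = π f) (z : X) (hz : z ∈ τ.ker) (hz' : z ∈ _root_.commutator X) :
    ∃ m ∈ M f, g m = z := by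
  have h1 : g.range ⊔ τ.ker = ⊤ := by
    rw [eq_top_iff]
    intro x _
    obtain ⟨e, he⟩ := π_surjective f hf (τ x)
    have h2 : (g e)⁻¹ * x ∈ τ.ker := by
      rw [MonoidHom.mem_ker, map_mul, map_inv, ← he]
      have := DFunLike.congr_fun hg e
      simp only [MonoidHom.comp_apply] at this
      rw [this, inv_mul_cancel]
    have : x = g e * ((g e)⁻¹ * x) := by group
    rw [this]
    exact mul_mem (mem_sup_left ⟨e, rfl⟩) (mem_sup_right h2)
  have h2 := comm_le_of_sup_central g.range τ.ker hc h1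
  have h3 : (_root_.commutator (E f)).map g = ⁅g.range, g.range⁆ := by
    rw [_root_.commutator_def, Subgroup.map_commutator, MonoidHom.range_eq_map]
  have h4 := h2 hz'
  rw [← h3] at h4
  obtain ⟨m, hm, rfl⟩ := h4
  refine ⟨m, Subgroup.mem_inf.mpr ⟨?_, hm⟩, rfl⟩
  rw [MonoidHom.mem_ker, ← hg]
  exact hz

/-- restriction of a lift to the multiplier -/
def tr {X : Type w} [Group X] (τ : X →* Q) (g : E f →* X) (hg : τ.comp g = π f) : M f →* τ.ker where
  toFun m := ⟨g m, by
    rw [MonoidHom.mem_ker]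
    have := DFunLike.congr_fun hg (m : E f)
    simp only [MonoidHom.comp_apply] at this
    rw [this]
    exact M_le_ker f m.2⟩
  map_one' := Subtype.ext (by simp)
  map_mul' _ _ := Subtype.ext (by simp)

theorem tr_surjective (hf : Function.Surjective f) {X : Type w} [Group X] (τ : X →* Q) (hτ : IsStemExtension τ)
    (g : E f →* X) (hg : τ.comp g = π f) : Function.Surjective (tr f τ g hg) := by
  rintro ⟨z, hz⟩
  obtain ⟨m, hm, rfl⟩ := lift_ker_surj f hf τ hτ g hg z hz
  exact ⟨⟨m, hm⟩, rfl⟩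

/-- every stem extension's kernel is an image of the multiplier -/
theorem exists_surj [IsFreeGroup F] (hf : Function.Surjective f) {X : Type w} [Group X] (τ : X →* Q)
    (hτ : IsStemExtension τ) : ∃ p : M f →* τ.ker, Function.Surjective p := by
  obtain ⟨g, hg⟩ := exists_lift_E f τ hτ.1 hτ.2.1 (MonoidHom.id Q)
  have hg' : τ.comp g = π f := by rw [hg]; rfl
  exact ⟨tr f τ g hg', tr_surjective f hf τ hτ g hg'⟩

/-- covers exist -/
theorem exists_cover [IsFreeGroup F] [Group.FG F] [Finite Q] (hf : Function.Surjective f) :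
    ∃ (Γ : Type v) (_ : Group Γ) (_ : Finite Γ) (σ : Γ →* Q), IsStemExtension σ ∧ Nonempty (σ.ker ≃* M f) := by
  obtain ⟨K, hK, hKM', hKM⟩ := exists_compl f (π f).ker le_rfl (sup_eq_left.mpr (M_le_ker f))
  have hn : K.Normal := normal_of_le hK
  exact ⟨E f ⧸ K, inferInstance, finite_quot hK hKM hKM', σ K hK, σ_stem hK hf hKM,
    ⟨(MulEquiv.ofBijective _ (θ_bij hK hKM hKM')).symm⟩⟩

end Lift

theorem bij_of_surj_surj {A : Type*} {B : Type*} [Finite A] (p : A → B) (hp : Function.Surjective p)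
    (h : Nat.card A ≤ Nat.card B) : Function.Bijective p := by
  have : Finite B := Finite.of_surjective p hp
  exact (Nat.bijective_iff_surjective_and_card p).mpr ⟨hp, le_antisymm h (Nat.card_le_card_of_surjective p hp)⟩

/-- the canonical free presentation -/
abbrev can (Q : Type u) [Group Q] : FreeGroup Q →* Q := FreeGroup.lift id

theorem can_surjective (Q : Type u) [Group Q] : Function.Surjective (can Q) := by
  intro q
  exact ⟨FreeGroup.of q, by simp⟩

/-- the multiplier computed from any free presentation -/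
theorem hasSchur {F Q : Type u} [Group F] [Group Q] [Finite Q] [IsFreeGroup F] [Group.FG F] (f : F →* Q)
    (hf : Function.Surjective f) : HasSchurMultiplier Q (M f) :=
  ⟨exists_cover f hf, fun Γ _ _ σ hσ => exists_surj f hf σ hσ⟩

theorem card_M_eq {F : Type v} {F' : Type w} {Q : Type u} [Group F] [Group F'] [Group Q] [Finite Q] [IsFreeGroup F]
    [Group.FG F] [IsFreeGroup F'] [Group.FG F'] (f : F →* Q) (hf : Function.Surjective f) (f' : F' →* Q)
    (hf' : Function.Surjective f') : Nat.card (M f) ≤ Nat.card (M f') := by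
  obtain ⟨Γ, _, _, σ, hσ, ⟨e⟩⟩ := exists_cover f hf
  obtain ⟨p, hp⟩ := exists_surj f' hf' σ hσ
  rw [← Nat.card_congr e.toEquiv]
  exact Nat.card_le_card_of_surjective p hp

/-- uniqueness of the Schur multiplier -/
theorem exists_equiv {F : Type v} {Q : Type u} {A : Type w} [Group F] [Group Q] [Finite Q] [CommGroup A]
    [IsFreeGroup F] [Group.FG F] (f : F →* Q) (hf : Function.Surjective f) (hA : HasSchurMultiplier Q A) :
    Nonempty (A ≃* M f) := by
  obtain ⟨⟨Γ, _, _, σ, hσ, ⟨e⟩⟩, hall⟩ := hA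
  obtain ⟨Γ₀, _, _, σ₀, hσ₀, ⟨e₀⟩⟩ := exists_cover (can Q) (can_surjective Q)
  obtain ⟨p₀, hp₀⟩ := hall Γ₀ σ₀ hσ₀
  have hfin : Finite A := Finite.of_equiv _ e.toEquiv
  obtain ⟨p, hp⟩ := exists_surj f hf σ hσ
  have h1 : Nat.card (M (can Q)) ≤ Nat.card A := by
    rw [← Nat.card_congr e₀.toEquiv]
    exact Nat.card_le_card_of_surjective p₀ hp₀
  have h2 : Nat.card (M f) ≤ Nat.card (M (can Q)) := card_M_eq f hf (can Q) (can_surjective Q)
  have h3 : Function.Bijective p := by
    apply bij_of_surj_surj p hp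
    rw [Nat.card_congr e.toEquiv]
    exact h2.trans h1
  exact ⟨(e.symm.trans (MulEquiv.ofBijective p h3).symm)⟩

theorem finite_of_hasSchur {Q : Type u} {A : Type w} [Group Q] [CommGroup A]
    (hA : HasSchurMultiplier Q A) : Finite A := by
  obtain ⟨⟨Γ, _, _, σ, hσ, ⟨e⟩⟩, hall⟩ := hA
  exact Finite.of_equiv _ e.toEquiv

theorem hasSchur_congr {Q : Type u} {A : Type w} {A' : Type v} [Group Q] [CommGroup A] [CommGroup A']
    (e : A ≃* A') (hA : HasSchurMultiplier Q A) : HasSchurMultiplier Q A' := by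
  obtain ⟨⟨Γ, _, _, σ, hσ, ⟨e₁⟩⟩, hall⟩ := hA
  refine ⟨⟨_, _, ‹_›, σ, hσ, ⟨e₁.trans e⟩⟩, fun Γ' _ _ σ' hσ' => ?_⟩
  obtain ⟨p, hp⟩ := hall Γ' σ' hσ'
  exact ⟨p.comp e.symm.toMonoidHom, hp.comp e.symm.surjective⟩

/-- a stem extension whose kernel has the order of the multiplier: `tr` is bijective -/
theorem tr_bijective {F : Type v} {Q : Type u} {Γ : Type w} [Group F] [Group Q] [Finite Q] [Group Γ]
    (f : F →* Q) (hf : Function.Surjective f) (σ : Γ →* Q) (hσ : IsStemExtension σ)
    (hcard : Nat.card (M f) ≤ Nat.card σ.ker) (g : E f →* Γ) (hg : σ.comp g = π f) :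
    Function.Bijective (tr f σ g hg) :=
  bij_of_surj_surj _ (tr_surjective f hf σ hσ g hg) hcard

/-- commutators of generators in a normalized subgroup -/
theorem commutator_closure_le {G : Type*} [Group G] (S : Set G) (N : Subgroup G)
    (hn : ∀ s ∈ S, ∀ n ∈ N, s * n * s⁻¹ ∈ N ∧ s⁻¹ * n * s ∈ N) (hc : ∀ s ∈ S, ∀ t ∈ S, ⁅s, t⁆ ∈ N) :
    ⁅closure S, closure S⁆ ≤ N := by
  have hnorm : ∀ g ∈ closure S, ∀ n ∈ N, g * n * g⁻¹ ∈ N := by
    intro g hg
    induction hg using Subgroup.closure_induction'' with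
    | mem x hx => exact fun n hn' => (hn x hx n hn').1
    | inv_mem x hx => exact fun n hn' => by rw [inv_inv]; exact (hn x hx n hn').2
    | one => intro n hn'; simpa using hn'
    | mul x y _ _ h1 h2 =>
      intro n hn'
      have := h1 _ (h2 n hn')
      rwa [show x * y * n * (x * y)⁻¹ = x * (y * n * y⁻¹) * x⁻¹ by group]
  have key : ∀ t ∈ S, ∀ g ∈ closure S, ⁅g, t⁆ ∈ N := by
    intro t ht g hg
    induction hg using Subgroup.closure_induction with
    | mem x hx => exact hc x hx t ht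
    | one => rw [commutatorElement_one_left]; exact one_mem _
    | mul x y hx hy h1 h2 =>
      have : ⁅x * y, t⁆ = x * ⁅y, t⁆ * x⁻¹ * ⁅x, t⁆ := by
        simp only [commutatorElement_def]; group
      rw [this]
      exact mul_mem (hnorm x hx _ h2) h1
    | inv x hx h1 =>
      have : ⁅x⁻¹, t⁆ = x⁻¹ * ⁅x, t⁆⁻¹ * x⁻¹⁻¹ := by
        simp only [commutatorElement_def]; group
      rw [this]
      exact hnorm _ (inv_mem hx) _ (inv_mem h1)
  rw [Subgroup.commutator_le]
  intro g hg h hh
  induction hh using Subgroup.closure_induction with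
  | mem x hx => exact key x hx g hg
  | one => rw [commutatorElement_one_right]; exact one_mem _
  | mul x y hx hy h1 h2 =>
    have : ⁅g, x * y⁆ = ⁅g, x⁆ * (x * ⁅g, y⁆ * x⁻¹) := by
      simp only [commutatorElement_def]; group
    rw [this]
    exact mul_mem h1 (hnorm x hx _ h2)
  | inv x hx h1 =>
    have : ⁅g, x⁻¹⁆ = x⁻¹ * ⁅g, x⁆⁻¹ * x⁻¹⁻¹ := by
      simp only [commutatorElement_def]; group
    rw [this]
    exact hnorm _ (inv_mem hx) _ (inv_mem h1)


/-- triviality criterion -/
theorem trivial_of {G : Type u} [Group G] [Finite G]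
    (h : ∀ (Γ : Type u) [Group Γ] [Finite Γ] (σ : Γ →* G), IsStemExtension σ → σ.ker = ⊥) :
    HasCyclicSchurMultiplier G 1 := by
  refine ⟨⟨G, inferInstance, inferInstance, MonoidHom.id G, ⟨Function.surjective_id, ?_, ?_⟩, ?_⟩, ?_⟩
  · intro x hx
    have : x = 1 := hx
    rw [this]; exact one_mem _
  · intro x hx
    have : x = 1 := hx
    rw [this]; exact one_mem _
  · refine ⟨{ toFun := fun _ => 1, invFun := fun _ => 1, left_inv := ?_, right_inv := ?_, map_mul' := ?_ }⟩
    · rintro ⟨x, hx⟩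
      have : x = 1 := hx
      exact Subtype.ext this.symm
    · intro x; exact Subsingleton.elim _ _
    · intro x y; rfl
  · intro Γ _ _ σ hσ
    have h1 := h Γ σ hσ
    refine ⟨1, ?_⟩
    rintro ⟨x, hx⟩
    have hx' := hx
    rw [h1, mem_bot] at hx'
    exact ⟨1, Subtype.ext hx'.symm⟩

theorem ker_eq_bot_of_trivial {G : Type u} [Group G] (h : HasCyclicSchurMultiplier G 1)
    (Γ : Type u) [Group Γ] [Finite Γ] (σ : Γ →* G) (hσ : IsStemExtension σ) : σ.ker = ⊥ := by
  obtain ⟨p, hp⟩ := h.2 Γ σ hσ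
  rw [eq_bot_iff]
  intro x hx
  obtain ⟨y, hy⟩ := hp ⟨x, hx⟩
  have : y = 1 := Subsingleton.elim _ _
  rw [this, map_one] at hy
  rw [mem_bot]
  exact (congrArg Subtype.val hy).symm

/-- the multiplier of any presentation is trivial iff the multiplier is trivial -/
theorem M_eq_bot_iff {F : Type v} {Q : Type u} [Group F] [Group Q] [Finite Q] [IsFreeGroup F]
    [Group.FG F] (f : F →* Q) (hf : Function.Surjective f) : M f = ⊥ ↔ HasCyclicSchurMultiplier Q 1 := by
  constructor
  · intro h
    apply trivial_of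
    intro Γ _ _ σ hσ
    obtain ⟨p, hp⟩ := exists_surj f hf σ hσ
    rw [eq_bot_iff]
    intro x hx
    obtain ⟨⟨y, hy⟩, hyx⟩ := hp ⟨x, hx⟩
    rw [h, mem_bot] at hy
    have : (⟨y, ‹_›⟩ : M f) = 1 := Subtype.ext hy
    rw [this, map_one] at hyx
    rw [mem_bot]
    exact (congrArg Subtype.val hyx).symm
  · intro h
    obtain ⟨e⟩ := exists_equiv f hf h
    have : Subsingleton (M f) := e.symm.toEquiv.subsingleton
    exact Subgroup.eq_bot_of_subsingleton _

end Cfsg.Agent.H22.Schur
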