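import Mathlib
import Cfsg.Agent.H1_Factor

set_option autoImplicit false

/-!
Sylow numbers: `n_r(N) ∣ n_r(G)` and `n_r(G/N) ∣ n_r(G)` for `N` normal.
-/

namespace Cfsg.Agent.H22.SylowNum

open Subgroup

universe u

variable {G : Type u} [Group G] [Finite G] {r : ℕ} [hr : Fact r.Prime]

/-- the number of Sylow subgroups of a quotient divides that of the group -/
theorem card_sylow_quotient_dvd (N : Subgroup G) [N.Normal] :
    Nat.card (Sylow r (G ⧸ N)) ∣ Nat.card (Sylow r G) := by
  let P : Sylow r G := default
  let Q : Sylow r (G ⧸ N) := P.mapSurjective (QuotientGroup.mk'_surjective N)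
  rw [P.card_eq_index_normalizer, Q.card_eq_index_normalizer]
  have h1 : (normalizer (Q : Set (G ⧸ N))).index =
      ((normalizer ((Q : Subgroup (G ⧸ N)) : Set (G ⧸ N))).comap (QuotientGroup.mk' N)).index :=
    (index_comap_of_surjective _ (QuotientGroup.mk'_surjective N)).symm
  rw [h1]
  apply index_dvd_of_le
  rw [← map_le_iff_le_comap]
  exact le_normalizer_map (QuotientGroup.mk' N)

theorem card_sylow_normal_dvd (N : Subgroup G) [N.Normal] :
    Nat.card (Sylow r N) ∣ Nat.card (Sylow r G) := by
  let R : Sylow r N := default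
  set R' : Subgroup G := (R : Subgroup N).map N.subtype with hR'
  have hR'p : IsPGroup r R' := R.2.map _
  obtain ⟨P, hP⟩ := hR'p.exists_le_sylow
  have hPN : (P : Subgroup G) ⊓ N = R' := by
    apply le_antisymm
    · have h1 : IsPGroup r ((P : Subgroup G).subgroupOf N) :=
        P.2.comap_of_injective N.subtype N.subtype_injective
      have h2 : (R : Subgroup N) ≤ (P : Subgroup G).subgroupOf N := by
        intro x hx
        exact hP ⟨x, hx, rfl⟩
      have h3 := R.3 h1 h2
      rw [hR', ← h3, subgroupOf_map_subtype]
    · exact le_inf hP (map_subtype_le _)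
  have h1 : normalizer ((P : Subgroup G) : Set G) ≤ normalizer (R' : Set G) := by
    rw [← hPN]
    intro g hg
    rw [mem_normalizer_iff] at hg ⊢
    intro x
    rw [mem_inf, mem_inf, ← hg x]
    constructor
    · rintro ⟨h1, h2⟩; exact ⟨h1, Subgroup.Normal.conj_mem inferInstance x h2 g⟩
    · rintro ⟨h1, h2⟩
      refine ⟨h1, ?_⟩
      have := Subgroup.Normal.conj_mem (inferInstance : N.Normal) _ h2 g⁻¹
      simpa [mul_assoc] using this
  have h2 : normalizer (R' : Set G) ⊔ N = ⊤ := R.normalizer_sup_eq_top
  -- the index
  have h3 : (normalizer (R' : Set G)).index = (normalizer (R' : Set G)).relIndex N := by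
    set H := normalizer (R' : Set G) with hH
    have e1 : N.relIndex (H ⊔ N) = N.relIndex H := relIndex_sup_right _ _
    rw [h2, relIndex_top_right] at e1
    have e2 := N.card_mul_index
    have e3 := H.card_mul_index
    have e4 : (H ⊓ N).relIndex H * Nat.card (H ⊓ N : Subgroup G) = Nat.card H := by
      rw [relIndex, ← Nat.card_congr (subgroupOfEquivOfLe (inf_le_left : H ⊓ N ≤ H)).toEquiv,
        mul_comm]
      exact card_mul_index _
    have e5 : (H ⊓ N).relIndex N * Nat.card (H ⊓ N : Subgroup G) = Nat.card N := by
      rw [relIndex, ← Nat.card_congr (subgroupOfEquivOfLe (inf_le_right : H ⊓ N ≤ N)).toEquiv,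
        mul_comm]
      exact card_mul_index _
    rw [inf_relIndex_left] at e4
    rw [inf_relIndex_right] at e5
    have e6 : 0 < Nat.card (H ⊓ N : Subgroup G) := Nat.card_pos
    have e7 : 0 < N.relIndex H := Nat.pos_of_ne_zero (by
      rw [← e1]; exact index_ne_zero_of_finite)
    have e8 : Nat.card H * H.index = Nat.card N * N.relIndex H := by rw [e3, ← e2, e1]
    rw [← e4, ← e5] at e8
    have e9 : (N.relIndex H * Nat.card (H ⊓ N : Subgroup G)) * H.index =
        (N.relIndex H * Nat.card (H ⊓ N : Subgroup G)) * H.relIndex N := by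
      rw [e8]; ring
    exact Nat.eq_of_mul_eq_mul_left (Nat.mul_pos e7 e6) e9
  have h4 : Nat.card (Sylow r N) = (normalizer (R' : Set G)).relIndex N := by
    rw [R.card_eq_index_normalizer, relIndex]
    congr 1
    show normalizer ((R : Subgroup N) : Set N) = (normalizer (R' : Set G)).subgroupOf N
    rw [hR', subgroupOf, coe_map]
    have h5 : (R : Subgroup N) = ((R : Subgroup N).map N.subtype).comap N.subtype :=
      (comap_map_eq_self_of_injective N.subtype_injective _).symm
    conv_lhs => rw [h5]
    have h6 : (R : Subgroup N).map N.subtype ≤ N.subtype.range := by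
      rw [range_subtype]; exact map_subtype_le _
    have := comap_normalizer_eq_of_le_range h6
    rw [← coe_map]
    exact this.symm
  rw [h4, ← h3, P.card_eq_index_normalizer]
  exact index_dvd_of_le h1

end Cfsg.Agent.H22.SylowNum
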