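import Cfsg.Agent.H22_Avg
import Cfsg.Agent.H1_Coprime2
import Cfsg.Agent.H22_Basic

/-!
Fixed-point-free action of an elementary abelian group of order `p²`: the key configuration.
-/

set_option autoImplicit false

namespace Cfsg.Agent.H22.Ward

open Subgroup
open scoped commutatorElement

variable {X : Type*} [Group X] [Finite X]

/-- elementary abelian of order `p²` -/
structure EA (p : ℕ) (A : Subgroup X) : Prop where
  comm : ∀ a ∈ A, ∀ b ∈ A, a * b = b * a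
  pow : ∀ a ∈ A, a ^ p = 1
  card : Nat.card A = p ^ 2

variable {p : ℕ} [hp : Fact p.Prime]

theorem EA.gen {A : Subgroup X} (hA : EA p A) {G L : Subgroup X} (hAG : A ≤ normalizer (G : Set X))
    (hcop : (Nat.card A).Coprime (Nat.card G))
    (hL : ∀ b ∈ A, b ≠ 1 → G ⊓ centralizer ({b} : Set X) ≤ L) : G ≤ L := by
  have hnc : ¬ IsCyclic A := by
    intro h
    obtain ⟨g, hg⟩ := h.exists_generator
    have h1 := orderOf_eq_card_of_forall_mem_zpowers hg
    rw [hA.card] at h1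
    have h2 : orderOf g ∣ p := orderOf_dvd_of_pow_eq_one (Subtype.ext (hA.pow g g.2))
    rw [h1] at h2
    have h3 := Nat.le_of_dvd hp.out.pos h2
    have h4 := hp.out.one_lt
    nlinarith
  obtain ⟨r, hr, hrA, x, y, hx, hy, hy1, hxy⟩ := Gen.exists_independent (Q := A)
    (fun a b => Subtype.ext (hA.comm a a.2 b b.2)) hnc
  have hrp : r = p := by
    rw [hA.card] at hrA
    exact (Nat.prime_dvd_prime_iff_eq hr hp.out).mp (hr.dvd_of_dvd_pow hrA)
  subst hrp
  apply Gen.gen_pp (A := A) (p := r) hA.comm hAG hcop hrA x.2 y.2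
  · have := congrArg Subtype.val hx
    rw [show ((x : X)) ^ r = 1 from this]
    exact one_mem _
  · have := congrArg Subtype.val hy
    rw [show ((y : X)) ^ r = 1 from this]
    exact one_mem _
  · exact hL y y.2 (fun h => hy1 (Subtype.ext h))
  · intro j _
    exact hL _ (A.mul_mem x.2 (A.pow_mem y.2 j)) (fun h => hxy j (Subtype.ext h))

omit [Finite X] in
theorem mem_zpowers_of {a b : X} (ha : a ^ p = 1) (hb : b ∈ zpowers a) (hb1 : b ≠ 1) : a ∈ zpowers b := by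
  obtain ⟨k, hk⟩ := mem_zpowers_iff.mp hb
  have hkp : ¬ (p : ℤ) ∣ k := by
    rintro ⟨m, rfl⟩
    apply hb1
    rw [← hk, zpow_mul, zpow_natCast, ha, one_zpow]
  have hcop : IsCoprime k (p : ℤ) := by
    rw [isCoprime_comm]
    exact (Int.prime_iff_natAbs_prime.mpr (by simpa using hp.out)).coprime_iff_not_dvd.mpr hkp
  obtain ⟨u, v, huv⟩ := hcop
  refine mem_zpowers_iff.mpr ⟨u, ?_⟩
  rw [← hk, ← zpow_mul]
  have h1 : k * u = 1 - v * p := by linear_combination huv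
  rw [h1, zpow_sub, zpow_one, mul_comm v, zpow_mul, zpow_natCast, ha, one_zpow, inv_one, mul_one]

omit [Finite X] hp in
theorem comm_of_zpowers {a b x : X} (h : x * b = b * x) (ha : a ∈ zpowers b) : x * a = a * x := by
  obtain ⟨k, rfl⟩ := mem_zpowers_iff.mp ha
  exact (Commute.zpow_right (show Commute x b from h) k).eq

theorem EA.comm_all {A : Subgroup X} (hA : EA p A) {b c x : X} (hb : b ∈ A) (hc : c ∈ A) (hb1 : b ≠ 1)
    (hcb : c ∉ zpowers b) (hxb : x * b = b * x) (hxc : x * c = c * x) : x ∈ centralizer (A : Set X) := by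
  set H := A ⊓ centralizer ({x} : Set X) with hH
  have hbH : b ∈ H := ⟨hb, mem_centralizer_singleton_iff.mpr hxb.symm⟩
  have hcH : c ∈ H := ⟨hc, mem_centralizer_singleton_iff.mpr hxc.symm⟩
  have hord : orderOf b = p := by
    have h1 : orderOf b ∣ p := orderOf_dvd_of_pow_eq_one (hA.pow b hb)
    exact ((Nat.dvd_prime hp.out).mp h1).resolve_left (fun h => hb1 (orderOf_eq_one_iff.mp h))
  have h1 : zpowers b ≤ H := zpowers_le.mpr hbH
  have h2 : p ∣ Nat.card H := by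
    have := Subgroup.orderOf_dvd_natCard H hbH
    rwa [hord] at this
  have h3 : Nat.card H ∣ p ^ 2 := by rw [← hA.card]; exact Subgroup.card_dvd_of_le inf_le_left
  obtain ⟨k, hk, hk2⟩ := (Nat.dvd_prime_pow hp.out).mp h3
  have h4 : k = 2 := by
    interval_cases k
    · rw [hk2, pow_zero] at h2
      exact absurd (Nat.dvd_one.mp h2) hp.out.one_lt.ne'
    · exfalso
      apply hcb
      have h5 : zpowers b = H := Basic.eq_of_le_of_card_le h1 (by rw [hk2, pow_one, Nat.card_zpowers, hord])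
      rw [h5]; exact hcH
    · rfl
  have h5 : H = A := Basic.eq_of_le_of_card_le inf_le_left (by rw [hk2, h4, hA.card])
  rw [mem_centralizer_iff]
  intro g hg
  have h6 : g ∈ H := h5 ▸ hg
  exact mem_centralizer_singleton_iff.mp h6.2

/-- elements acting trivially on `Q/D` -/
def Triv (Q D : Subgroup X) : Subgroup X where
  carrier := {g | g ∈ normalizer (Q : Set X) ∧ g ∈ normalizer (D : Set X) ∧ ∀ q ∈ Q, g * q * g⁻¹ * q⁻¹ ∈ D}
  one_mem' := ⟨one_mem _, one_mem _, fun q _ => by rw [one_mul, inv_one, mul_one, mul_inv_cancel]; exact one_mem _⟩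
  mul_mem' := by
    rintro g h ⟨hg1, hg2, hg3⟩ ⟨hh1, hh2, hh3⟩
    refine ⟨mul_mem hg1 hh1, mul_mem hg2 hh2, fun q hq => ?_⟩
    have h1 : g * h * q * (g * h)⁻¹ * q⁻¹ = g * (h * q * h⁻¹ * q⁻¹) * g⁻¹ * (g * q * g⁻¹ * q⁻¹) := by group
    rw [h1]
    exact D.mul_mem ((Subgroup.mem_normalizer_iff.mp hg2 _).mp (hh3 q hq)) (hg3 q hq)
  inv_mem' := by
    rintro g ⟨hg1, hg2, hg3⟩
    refine ⟨inv_mem hg1, inv_mem hg2, fun q hq => ?_⟩
    have h1 : g⁻¹ * q * g⁻¹⁻¹ * q⁻¹ = g⁻¹ * (g * q * g⁻¹ * q⁻¹)⁻¹ * g⁻¹⁻¹ := by group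
    rw [h1]
    exact (Subgroup.mem_normalizer_iff.mp (inv_mem hg2) _).mp (D.inv_mem (hg3 q hq))

omit [Finite X] in
theorem triv_conj {Q D : Subgroup X} {g h : X} (hg : g ∈ Triv Q D) (hQ : h ∈ normalizer (Q : Set X))
    (hD : h ∈ normalizer (D : Set X)) : h * g * h⁻¹ ∈ Triv Q D := by
  obtain ⟨hg1, hg2, hg3⟩ := hg
  refine ⟨mul_mem (mul_mem hQ hg1) (inv_mem hQ), mul_mem (mul_mem hD hg2) (inv_mem hD), fun q hq => ?_⟩
  have h1 : h * g * h⁻¹ * q * (h * g * h⁻¹)⁻¹ * q⁻¹ = h * (g * (h⁻¹ * q * h⁻¹⁻¹) * g⁻¹ * (h⁻¹ * q * h⁻¹⁻¹)⁻¹) * h⁻¹ := by group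
  rw [h1]
  exact (Subgroup.mem_normalizer_iff.mp hD _).mp (hg3 _ ((Subgroup.mem_normalizer_iff.mp (inv_mem hQ) _).mp hq))

omit [Finite X] in
theorem triv_of {Q D E : Subgroup X} (hED : E ≤ normalizer (D : Set X)) (hQ : Q ≤ D ⊔ E) {g : X}
    (h1 : g ∈ normalizer (Q : Set X)) (h2 : g ∈ normalizer (D : Set X)) (h3 : ∀ e ∈ E, g * e = e * g) : g ∈ Triv Q D := by
  refine ⟨h1, h2, fun q hq => ?_⟩
  obtain ⟨d, hd, e, he, rfl⟩ := (Basic.mem_sup_of_le_normalizer hED).mp (hQ hq)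
  have h4 : g * (d * e) * g⁻¹ * (d * e)⁻¹ = (g * d * g⁻¹) * d⁻¹ := by
    calc g * (d * e) * g⁻¹ * (d * e)⁻¹ = g * d * (e * g⁻¹) * e⁻¹ * d⁻¹ := by group
      _ = g * d * (g⁻¹ * e) * e⁻¹ * d⁻¹ := by
        rw [show e * g⁻¹ = g⁻¹ * e from ((Commute.inv_left (show Commute g e from h3 e he)).eq).symm]
      _ = (g * d * g⁻¹) * d⁻¹ := by group
  rw [h4]
  exact D.mul_mem ((Subgroup.mem_normalizer_iff.mp h2 _).mp hd) (D.inv_mem hd)

omit [Finite X] in
theorem comm_le_of_triv {Q D R : Subgroup X} (h : R ≤ Triv Q D) : ⁅Q, R⁆ ≤ D := by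
  rw [Subgroup.commutator_le]
  intro q hq x hx
  have h1 := D.inv_mem ((h hx).2.2 q hq)
  have h2 : (x * q * x⁻¹ * q⁻¹)⁻¹ = ⁅q, x⁆ := by rw [commutatorElement_def]; group
  rwa [h2] at h1

/-- the hypotheses of the key proposition -/
structure Hyp (A V R : Subgroup X) (a : X) (q : ℕ) (Q : Subgroup X) : Prop where
  pg : IsPGroup q Q
  faith : Q ⊓ centralizer (V : Set X) = ⊥
  AQ : A ≤ normalizer (Q : Set X)
  RQ : R ≤ normalizer (Q : Set X)
  cAQ : (Nat.card A).Coprime (Nat.card Q)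
  cRQ : (Nat.card R).Coprime (Nat.card Q)
  cQV : (Nat.card Q).Coprime (Nat.card V)
  fix : Q ⊓ centralizer (A : Set X) = ⊥
  h1 : ∀ b ∈ A, b ≠ 1 → ∀ y ∈ Q, y * b = b * y → ∀ v ∈ V, v * b = b * v → y * v = v * y
  h2 : ∀ y ∈ Q, y * a = a * y → ∀ x ∈ R, x * y = y * x

omit [Finite X] in
theorem coprime_of_le {H K : Subgroup X} (h : H ≤ K) {n : ℕ} (hn : n.Coprime (Nat.card K)) : n.Coprime (Nat.card H) :=
  Nat.Coprime.coprime_dvd_right (Subgroup.card_dvd_of_le h) hn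

theorem Hyp.mono {A V R : Subgroup X} {a : X} {q : ℕ} {Q Q' : Subgroup X} (h : Hyp A V R a q Q) (hQ : Q' ≤ Q)
    (hA : A ≤ normalizer (Q' : Set X)) (hR : R ≤ normalizer (Q' : Set X)) : Hyp A V R a q Q' where
  pg := h.pg.to_le hQ
  faith := le_bot_iff.mp ((inf_le_inf_right _ hQ).trans h.faith.le)
  AQ := hA
  RQ := hR
  cAQ := coprime_of_le hQ h.cAQ
  cRQ := coprime_of_le hQ h.cRQ
  cQV := (coprime_of_le hQ h.cQV.symm).symm
  fix := le_bot_iff.mp ((inf_le_inf_right _ hQ).trans h.fix.le)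
  h1 := fun b hb hb1 y hy => h.h1 b hb hb1 y (hQ hy)
  h2 := fun y hy => h.h2 y (hQ hy)

section main

variable {A V R : Subgroup X} {a : X} {q : ℕ}

/-- `R` acts trivially on `Q/D` if `Q = D C_Q(b)` -/
theorem final_step (hA : EA p A) (ha : a ∈ A) (ha1 : a ≠ 1) (hAR : A ≤ normalizer (R : Set X))
    (hcAR : (Nat.card A).Coprime (Nat.card R)) (hRA : R ⊓ centralizer (A : Set X) = ⊥) (haR : ∀ x ∈ R, x * a = a * x)
    {Q D : Subgroup X} (hQ : Hyp A V R a q Q) (hDA : A ≤ normalizer (D : Set X)) (hDR : R ≤ normalizer (D : Set X))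
    (hDQ : Q ≤ normalizer (D : Set X)) {b : X} (hb : b ∈ A) (hb1 : b ≠ 1)
    (hsup : Q ≤ D ⊔ (Q ⊓ centralizer ({b} : Set X))) : ⁅Q, R⁆ ≤ D := by
  have hbT : b ∈ Triv Q D := triv_of (inf_le_left.trans hDQ) hsup (hQ.AQ hb) (hDA hb)
    (fun e he => (mem_centralizer_singleton_iff.mp he.2).symm)
  apply comm_le_of_triv
  by_cases hba : b ∈ zpowers a
  · have hab : a ∈ zpowers b := mem_zpowers_of (hA.pow a ha) hba hb1
    intro x hx
    refine triv_of (inf_le_left.trans hDQ) hsup (hQ.RQ hx) (hDR hx) (fun e he => ?_)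
    exact hQ.h2 e he.1 (comm_of_zpowers (mem_centralizer_singleton_iff.mp he.2) hab) x hx
  · have hbot : R ⊓ centralizer ((zpowers b : Subgroup X) : Set X) = ⊥ := by
      rw [eq_bot_iff]
      intro x hx
      rw [← hRA]
      refine ⟨hx.1, ?_⟩
      apply hA.comm_all ha hb ha1 hba (haR x hx.1)
      exact ((mem_centralizer_iff.mp hx.2) b (mem_zpowers b)).symm
    have hbR : zpowers b ≤ normalizer (R : Set X) := (zpowers_le.mpr hb).trans hAR
    have h1 := H1.Coprime.commutator_sup_centralizer (zpowers b) R hbR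
      (Nat.Coprime.coprime_dvd_left (Subgroup.card_dvd_of_le (zpowers_le.mpr hb)) hcAR)
      (Or.inl (Group.isSolvable_of_comm mul_comm'))
    rw [hbot, sup_bot_eq] at h1
    rw [← h1, Subgroup.commutator_le]
    intro x hx c hc
    have hcT : c ∈ Triv Q D := (zpowers_le.mpr hbT) hc
    rw [commutatorElement_def]
    exact mul_mem (triv_conj hcT (hQ.RQ hx) (hDR hx)) (inv_mem hcT)

/-- splitting off `C_Q(b)` -/
theorem split (hA : EA p A) {Q D : Subgroup X} (hAQ : A ≤ normalizer (Q : Set X)) (hc : (Nat.card A).Coprime (Nat.card Q))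
    {b : X} (hb : b ∈ A) (h : ∀ c ∈ A, c ∉ zpowers b → Q ⊓ centralizer ({c} : Set X) ≤ D) :
    Q ≤ D ⊔ (Q ⊓ centralizer ({b} : Set X)) := by
  apply hA.gen hAQ hc
  intro c hcA hc1
  by_cases hcb : c ∈ zpowers b
  · refine le_trans ?_ le_sup_right
    intro y hy
    refine ⟨hy.1, mem_centralizer_singleton_iff.mpr ?_⟩
    exact comm_of_zpowers (mem_centralizer_singleton_iff.mp hy.2) (mem_zpowers_of (hA.pow b hb) hcb hc1)
  · exact (h c hcA hcb).trans le_sup_left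

end main

end Cfsg.Agent.H22.Ward
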