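import Cfsg.Agent.H22_Ward

/-!
The key proposition for Ward's theorem.
-/

set_option autoImplicit false
set_option linter.unusedSectionVars false

namespace Cfsg.Agent.H22.Ward

open Subgroup
open scoped commutatorElement

variable {X : Type*} [Group X] [Finite X] {p : ℕ} [hp : Fact p.Prime]
variable {A V R : Subgroup X} {a : X} {q : ℕ}

theorem le_normalizer_of_abelian {A B : Subgroup X} (hA : ∀ a ∈ A, ∀ b ∈ A, a * b = b * a) (hB : B ≤ A) :
    A ≤ normalizer (B : Set X) := by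
  intro g hg
  rw [Subgroup.mem_normalizer_iff]
  intro h
  constructor
  · intro hh
    rwa [hA g hg h (hB hh), mul_inv_cancel_right]
  · intro hh
    have h1 : g⁻¹ * (g * h * g⁻¹) * g = g * h * g⁻¹ := by
      have h2 := hA g⁻¹ (A.inv_mem hg) _ (hB hh)
      rw [h2, inv_mul_cancel_right]
    have h3 : g⁻¹ * (g * h * g⁻¹) * g = h := by group
    rw [← h3, h1]; exact hh

theorem le_normalizer_centralizer_singleton {A : Subgroup X} (hA : ∀ a ∈ A, ∀ b ∈ A, a * b = b * a) {b : X} (hb : b ∈ A) :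
    A ≤ normalizer (centralizer ({b} : Set X) : Set X) := by
  intro g hg
  apply Subgroup.le_normalizer
  exact mem_centralizer_singleton_iff.mpr (hA g hg b hb)

/-- coprime action: if `[V, Z]` is centralized by `Z` then so is `V` -/
theorem trivial_of_comm [V.Normal] (hV : ∀ u ∈ V, ∀ v ∈ V, u * v = v * u) {Q Z : Subgroup X}
    (hZQ : Z ≤ Q) (hcop : (Nat.card Q).Coprime (Nat.card V)) (hf : Q ⊓ centralizer (V : Set X) = ⊥)
    (h : Z ≤ centralizer ((⁅V, Z⁆ : Subgroup X) : Set X)) : Z = ⊥ := by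
  have hZV : Z ≤ normalizer (V : Set X) := by rw [Subgroup.normalizer_eq_top]; exact le_top
  have hsol : Group.IsSolvable Z ∨ Group.IsSolvable V := Or.inr (Group.isSolvable_of_comm
    (fun a b => Subtype.ext (hV a a.2 b b.2)))
  have hcop' : (Nat.card Z).Coprime (Nat.card V) := Nat.Coprime.coprime_dvd_left (Subgroup.card_dvd_of_le hZQ) hcop
  have h1 := H1.Coprime.commutator_commutator_eq Z V hZV hcop' hsol
  have h2 : ⁅⁅V, Z⁆, Z⁆ = ⊥ := by
    rw [Subgroup.commutator_eq_bot_iff_le_centralizer, Subgroup.le_centralizer_iff]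
    exact h
  rw [h2] at h1
  rw [eq_bot_iff, ← hf]
  refine le_inf hZQ ?_
  rw [Subgroup.le_centralizer_iff, ← Subgroup.commutator_eq_bot_iff_le_centralizer]
  exact h1.symm

/-- Step 1: central subgroup centralized by `R` -/
theorem step1 [V.Normal] (hV : ∀ u ∈ V, ∀ v ∈ V, u * v = v * u) (hA : EA p A) (ha : a ∈ A) (ha1 : a ≠ 1)
    (hAR : A ≤ normalizer (R : Set X)) (hcAR : (Nat.card A).Coprime (Nat.card R))
    (hRA : R ⊓ centralizer (A : Set X) = ⊥) (haR : ∀ x ∈ R, x * a = a * x)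
    {Q : Subgroup X} (hQ : Hyp A V R a q Q) (hQR : ⁅Q, R⁆ = Q)
    {Z : Subgroup X} (hZQ : Z ≤ Q) (hZc : Z ≤ centralizer (Q : Set X)) (hZR : Z ≤ centralizer (R : Set X))
    (hZA : A ≤ normalizer (Z : Set X)) : Z = ⊥ := by
  by_contra hne
  -- a nontrivial fixed point group
  obtain ⟨b, hb, hb1, hbZ⟩ : ∃ b ∈ A, b ≠ 1 ∧ Z ⊓ centralizer ({b} : Set X) ≠ ⊥ := by
    by_contra hcon
    push Not at hcon
    apply hne
    rw [eq_bot_iff]
    exact hA.gen hZA (coprime_of_le hZQ hQ.cAQ) (fun c hc hc1 => (hcon c hc hc1).le)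
  apply hbZ
  set Z₀ := Z ⊓ centralizer ({b} : Set X) with hZ₀
  have hZ₀Q : Z₀ ≤ Q := inf_le_left.trans hZQ
  have hAZ₀ : A ≤ normalizer (Z₀ : Set X) := Basic.le_normalizer_inf hZA (le_normalizer_centralizer_singleton hA.comm hb)
  have hQZ₀ : Q ≤ normalizer (Z₀ : Set X) := by
    apply H1.Coprime.le_normalizer_of_le_centralizer
    rw [Subgroup.le_centralizer_iff]
    exact inf_le_left.trans hZc
  have hRZ₀ : R ≤ normalizer (Z₀ : Set X) := by
    apply H1.Coprime.le_normalizer_of_le_centralizer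
    rw [Subgroup.le_centralizer_iff]
    exact inf_le_left.trans hZR
  have hNV : ∀ H : Subgroup X, H ≤ normalizer (V : Set X) := by
    intro H; rw [Subgroup.normalizer_eq_top]; exact le_top
  set U := ⁅V, Z₀⁆ with hU
  set D := Q ⊓ centralizer (U : Set X) with hD
  have hnorm : ∀ H : Subgroup X, H ≤ normalizer (Q : Set X) → H ≤ normalizer (Z₀ : Set X) → H ≤ normalizer (D : Set X) := by
    intro H h1 h2
    exact Basic.le_normalizer_inf h1 (Basic.le_normalizer_centralizer (Basic.le_normalizer_commutator (hNV H) h2))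
  have hsmall : ∀ c ∈ A, c ∉ zpowers b → Q ⊓ centralizer ({c} : Set X) ≤ D := by
    intro c hc hcb y hy
    have hc1 : c ≠ 1 := fun h => hcb (h ▸ one_mem _)
    refine ⟨hy.1, ?_⟩
    have hyc : y * c = c * y := mem_centralizer_singleton_iff.mp hy.2
    refine mem_centralizer_iff.mpr (fun v hv => ?_)
    have h1 := Avg.centralizes V hV Z₀ (Nat.Coprime.coprime_dvd_left (Subgroup.card_dvd_of_le hZ₀Q) hQ.cQV)
      (hA.pow c hc) (hAZ₀ hc) ?_ (y := y) ?_ ?_ v hv
    · exact h1.symm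
    · intro z hz hcz
      have h2 : z ∈ centralizer (A : Set X) :=
        hA.comm_all hb hc hb1 hcb (mem_centralizer_singleton_iff.mp hz.2) hcz.symm
      have h3 : z ∈ Q ⊓ centralizer (A : Set X) := ⟨hZ₀Q hz, h2⟩
      rw [hQ.fix] at h3
      exact Subgroup.mem_bot.mp h3
    · intro z hz
      exact (mem_centralizer_iff.mp (hZc hz.1) y hy.1)
    · intro v hv hvc
      exact hQ.h1 c hc hc1 y hy.1 hyc v hv hvc
  have hsup := split hA hQ.AQ hQ.cAQ hb hsmall
  have h1 := final_step hA ha ha1 hAR hcAR hRA haR hQ (hnorm A hQ.AQ hAZ₀) (hnorm R hQ.RQ hRZ₀)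
    (hnorm Q Subgroup.le_normalizer hQZ₀) hb hb1 hsup
  rw [hQR] at h1
  exact trivial_of_comm hV hZ₀Q hQ.cQV hQ.faith (hZ₀Q.trans (h1.trans inf_le_right))

end Cfsg.Agent.H22.Ward
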