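import Cfsg.Agent.H22_Ward2

/-!
The key proposition for Ward's theorem: the abelian case.
-/

set_option autoImplicit false
set_option linter.unusedSectionVars false

namespace Cfsg.Agent.H22.Ward

open Subgroup
open scoped commutatorElement Pointwise
open Cfsg.Agent.H22.Basic (cj mem_cj cj_mul conj_mem_cj)

variable {X : Type*} [Group X] [Finite X] {p : ℕ} [hp : Fact p.Prime]
variable {A V R : Subgroup X} {a : X} {q : ℕ}

theorem triv_mono {Q D K : Subgroup X} (hDK : D ≤ K) (hKQ : K ≤ Q) {g : X} (hg : g ∈ Triv Q D) : g ∈ Triv Q K := by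
  have h1 : ∀ g ∈ Triv Q D, ∀ k ∈ K, g * k * g⁻¹ ∈ K := by
    intro g hg k hk
    have h2 := hDK (hg.2.2 k (hKQ hk))
    have h3 : g * k * g⁻¹ = g * k * g⁻¹ * k⁻¹ * k := by group
    rw [h3]; exact K.mul_mem h2 hk
  refine ⟨hg.1, ?_, fun q hq => hDK (hg.2.2 q hq)⟩
  rw [Subgroup.mem_normalizer_iff]
  intro h
  refine ⟨h1 g hg h, fun h2 => ?_⟩
  have h3 := h1 g⁻¹ (inv_mem hg) _ h2
  have h4 : g⁻¹ * (g * h * g⁻¹) * g⁻¹⁻¹ = h := by group
  rwa [h4] at h3

theorem triv_cj {Q D : Subgroup X} {x g : X} (hx : x ∈ normalizer (Q : Set X)) (hg : g ∈ Triv Q D) :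
    x * g * x⁻¹ ∈ Triv Q (cj x D) := by
  refine ⟨mul_mem (mul_mem hx hg.1) (inv_mem hx), ?_, fun q hq => ?_⟩
  · rw [Basic.normalizer_cj]
    exact conj_mem_cj hg.2.1
  · rw [mem_cj]
    have h1 := hg.2.2 (x⁻¹ * q * x⁻¹⁻¹) ((Subgroup.mem_normalizer_iff.mp (inv_mem hx) q).mp hq)
    have h2 : x⁻¹ * (x * g * x⁻¹ * q * (x * g * x⁻¹)⁻¹ * q⁻¹) * x = g * (x⁻¹ * q * x⁻¹⁻¹) * g⁻¹ * (x⁻¹ * q * x⁻¹⁻¹)⁻¹ := by
      group
    rw [h2]; exact h1

/-- a `p`-subgroup of order `p²` of `R A` generated up to `R` by two conjugates -/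
theorem exists_cj_le (hA : EA p A) (hAR : A ≤ normalizer (R : Set X)) (hcAR : (Nat.card A).Coprime (Nat.card R))
    {b c x : X} (hb : b ∈ A) (hc : c ∈ A) (hb1 : b ≠ 1) (hcb : c ∉ zpowers b) (hx : x ∈ R) :
    ∃ k ∈ R, cj k A ≤ zpowers c ⊔ zpowers (x * b * x⁻¹) := by
  set T := zpowers c ⊔ zpowers (x * b * x⁻¹) with hT
  have hcT : c ∈ T := (le_sup_left : zpowers c ≤ T) (mem_zpowers c)
  have hbT : x * b * x⁻¹ ∈ T := (le_sup_right : zpowers (x * b * x⁻¹) ≤ T) (mem_zpowers _)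
  have hTle : T ≤ A ⊔ R := by
    apply sup_le
    · exact zpowers_le.mpr ((le_sup_left : A ≤ A ⊔ R) hc)
    · apply zpowers_le.mpr
      have hxx : x ∈ A ⊔ R := (le_sup_right : R ≤ A ⊔ R) hx
      exact mul_mem (mul_mem hxx ((le_sup_left : A ≤ A ⊔ R) hb)) (inv_mem hxx)
  have hAbc : A ≤ zpowers b ⊔ zpowers c := by
    intro g hg
    set H := A ⊓ (zpowers b ⊔ zpowers c) with hH
    have hbH : b ∈ H := ⟨hb, (le_sup_left : zpowers b ≤ zpowers b ⊔ zpowers c) (mem_zpowers b)⟩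
    have hcH : c ∈ H := ⟨hc, (le_sup_right : zpowers c ≤ zpowers b ⊔ zpowers c) (mem_zpowers c)⟩
    have hord : orderOf b = p := by
      have h1 : orderOf b ∣ p := orderOf_dvd_of_pow_eq_one (hA.pow b hb)
      exact ((Nat.dvd_prime hp.out).mp h1).resolve_left (fun h => hb1 (orderOf_eq_one_iff.mp h))
    have h1 : zpowers b ≤ H := zpowers_le.mpr hbH
    have h2 : p ∣ Nat.card H := by
      have := Subgroup.orderOf_dvd_natCard H hbH
      rwa [hord] at this
    have h3 : Nat.card H ∣ p ^ 2 := by rw [← hA.card]; exact Subgroup.card_dvd_of_le inf_le_left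
    obtain ⟨k, hk, hk2⟩ := (Nat.dvd_prime_pow hp.out).mp h3
    have h4 : k = 2 := by
      interval_cases k
      · rw [hk2, pow_zero] at h2
        exact absurd (Nat.dvd_one.mp h2) hp.out.one_lt.ne'
      · exfalso
        apply hcb
        have h5 : zpowers b = H := Basic.eq_of_le_of_card_le h1 (by rw [hk2, pow_one, Nat.card_zpowers, hord])
        rw [h5]; exact hcH
      · rfl
    have h5 : H = A := Basic.eq_of_le_of_card_le inf_le_left (by rw [hk2, h4, hA.card])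
    have h6 : g ∈ H := h5 ▸ hg
    exact h6.2
  have hsup : T ⊔ R = A ⊔ R := by
    apply le_antisymm (sup_le hTle le_sup_right)
    apply sup_le _ le_sup_right
    refine hAbc.trans (sup_le (zpowers_le.mpr ?_) (zpowers_le.mpr ((le_sup_left : T ≤ T ⊔ R) hcT)))
    have hxx : x ∈ T ⊔ R := (le_sup_right : R ≤ T ⊔ R) hx
    have h1 : b = x⁻¹ * (x * b * x⁻¹) * x := by group
    rw [h1]
    exact mul_mem (mul_mem (inv_mem hxx) ((le_sup_left : T ≤ T ⊔ R) hbT)) hxx
  have hARle : A ⊔ R ≤ normalizer (R : Set X) := sup_le hAR Subgroup.le_normalizer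
  have hcard1 : Nat.card (A ⊔ R : Subgroup X) = Nat.card A * Nat.card R :=
    H1.Coprime.card_sup_of_le_normalizer hAR (Basic.inf_eq_bot_of_coprime hcAR)
  have hcard2 := H1.Basic.card_sup_mul_card_inf (H := T) (K := R) (hTle.trans hARle)
  rw [hsup, hcard1, hA.card] at hcard2
  have hp2 : p ^ 2 ∣ Nat.card T := by
    refine ⟨Nat.card (T ⊓ R : Subgroup X), ?_⟩
    have hR0 : 0 < Nat.card R := Nat.card_pos
    apply Nat.eq_of_mul_eq_mul_right hR0
    rw [← hcard2]; ring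
  obtain ⟨P, hP⟩ := Sylow.exists_subgroup_card_pow_prime p hp2
  set B := P.map T.subtype with hB
  have hBT : B ≤ T := Subgroup.map_subtype_le P
  have hBc : Nat.card B = Nat.card A := by
    rw [hB, Subgroup.card_map_of_injective T.subtype_injective, hP, hA.card]
  obtain ⟨k, hk, hkA⟩ := H1.Coprime.sz_internal hAR (hBT.trans hTle) hBc hcAR
    (Or.inl (Group.isSolvable_of_comm (fun a b => Subtype.ext (hA.comm a a.2 b b.2))))
  refine ⟨k, hk, ?_⟩
  have : cj k A = B := hkA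
  rw [this]; exact hBT

/-- the intersection of the conjugates of the centralizer of `U` -/
theorem exists_core {A R Q U : Subgroup X} (hRQ : R ≤ normalizer (Q : Set X)) (hAQ : A ≤ normalizer (Q : Set X))
    (hAR : A ≤ normalizer (R : Set X)) (hAU : A ≤ normalizer (U : Set X)) :
    ∃ E : Subgroup X, (∀ y, y ∈ E ↔ y ∈ Q ∧ ∀ x ∈ R, x⁻¹ * y * x ∈ centralizer (U : Set X)) ∧
      R ≤ normalizer (E : Set X) ∧ A ≤ normalizer (E : Set X) := by
  let E : Subgroup X :=
    { carrier := {y | y ∈ Q ∧ ∀ x ∈ R, x⁻¹ * y * x ∈ centralizer (U : Set X)}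
      one_mem' := ⟨Q.one_mem, fun x _ => by rw [mul_one, inv_mul_cancel]; exact one_mem _⟩
      mul_mem' := by
        rintro y z ⟨hy, hy2⟩ ⟨hz, hz2⟩
        refine ⟨Q.mul_mem hy hz, fun x hx => ?_⟩
        have h1 : x⁻¹ * (y * z) * x = (x⁻¹ * y * x) * (x⁻¹ * z * x) := by group
        rw [h1]; exact mul_mem (hy2 x hx) (hz2 x hx)
      inv_mem' := by
        rintro y ⟨hy, hy2⟩
        refine ⟨Q.inv_mem hy, fun x hx => ?_⟩
        have h1 : x⁻¹ * y⁻¹ * x = (x⁻¹ * y * x)⁻¹ := by group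
        rw [h1]; exact inv_mem (hy2 x hx) }
  have hE : ∀ y, y ∈ E ↔ y ∈ Q ∧ ∀ x ∈ R, x⁻¹ * y * x ∈ centralizer (U : Set X) := fun y => Iff.rfl
  refine ⟨E, hE, ?_, ?_⟩
  · intro g hg
    apply Basic.mem_normalizer_of_cj_le
    intro y hy
    rw [mem_cj, hE] at hy
    rw [hE]
    refine ⟨?_, fun x hx => ?_⟩
    · have h1 := (Subgroup.mem_normalizer_iff.mp (hRQ hg) _).mp hy.1
      have h2 : g * (g⁻¹ * y * g) * g⁻¹ = y := by group
      rwa [h2] at h1
    · have h1 := hy.2 (g⁻¹ * x) (R.mul_mem (R.inv_mem hg) hx)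
      have h2 : (g⁻¹ * x)⁻¹ * (g⁻¹ * y * g) * (g⁻¹ * x) = x⁻¹ * y * x := by group
      rwa [h2] at h1
  · intro g hg
    apply Basic.mem_normalizer_of_cj_le
    intro y hy
    rw [mem_cj, hE] at hy
    rw [hE]
    refine ⟨?_, fun x hx => ?_⟩
    · have h1 := (Subgroup.mem_normalizer_iff.mp (hAQ hg) _).mp hy.1
      have h2 : g * (g⁻¹ * y * g) * g⁻¹ = y := by group
      rwa [h2] at h1
    · have hx' : g⁻¹ * x * g⁻¹⁻¹ ∈ R := (Subgroup.mem_normalizer_iff.mp (hAR (A.inv_mem hg)) x).mp hx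
      have h1 := hy.2 _ hx'
      have h2 := (Subgroup.mem_normalizer_iff.mp (Basic.le_normalizer_centralizer hAU hg) _).mp h1
      have h3 : g * ((g⁻¹ * x * g⁻¹⁻¹)⁻¹ * (g⁻¹ * y * g) * (g⁻¹ * x * g⁻¹⁻¹)) * g⁻¹ = x⁻¹ * y * x := by group
      rwa [h3] at h2

set_option maxHeartbeats 1000000 in
/-- Step 2: the abelian case -/
theorem step2 [V.Normal] (hV : ∀ u ∈ V, ∀ v ∈ V, u * v = v * u) (hA : EA p A) (ha : a ∈ A) (ha1 : a ≠ 1)
    (hAR : A ≤ normalizer (R : Set X)) (hcAR : (Nat.card A).Coprime (Nat.card R))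
    (hRA : R ⊓ centralizer (A : Set X) = ⊥) (haR : ∀ x ∈ R, x * a = a * x)
    {Q : Subgroup X} (hQ : Hyp A V R a q Q) (hQR : ⁅Q, R⁆ = Q) (hQc : ∀ x ∈ Q, ∀ y ∈ Q, x * y = y * x) : Q = ⊥ := by
  have hNV : ∀ H : Subgroup X, H ≤ normalizer (V : Set X) := by
    intro H; rw [Subgroup.normalizer_eq_top]; exact le_top
  have hsolA : Group.IsSolvable A := Group.isSolvable_of_comm (fun a b => Subtype.ext (hA.comm a a.2 b b.2))
  -- (2a)
  have h2a : ∀ b ∈ A, b ≠ 1 → ∀ c ∈ A, c ∉ zpowers b → ∀ y ∈ Q, y * c = c * y →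
      ∀ v ∈ ⁅V, Q ⊓ centralizer ({b} : Set X)⁆, y * v = v * y := by
    intro b hb hb1 c hc hcb y hy hyc
    have hc1 : c ≠ 1 := fun h => hcb (h ▸ one_mem _)
    apply Avg.centralizes V hV (Q ⊓ centralizer ({b} : Set X))
      (Nat.Coprime.coprime_dvd_left (Subgroup.card_dvd_of_le inf_le_left) hQ.cQV) (hA.pow c hc)
    · exact Basic.le_normalizer_inf hQ.AQ (le_normalizer_centralizer_singleton hA.comm hb) hc
    · intro z hz hcz
      have h2 : z ∈ centralizer (A : Set X) :=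
        hA.comm_all hb hc hb1 hcb (mem_centralizer_singleton_iff.mp hz.2) hcz.symm
      have h3 : z ∈ Q ⊓ centralizer (A : Set X) := ⟨hz.1, h2⟩
      rw [hQ.fix] at h3
      exact Subgroup.mem_bot.mp h3
    · intro z hz
      exact hQc y hy z hz.1
    · intro v hv hvc
      exact hQ.h1 c hc hc1 y hy hyc v hv hvc
  -- (2b)
  have h2b : ∀ b ∈ A, b ≠ 1 → ∀ c ∈ A, c ∉ zpowers b → ∀ x ∈ R,
      Q ≤ centralizer ((cj x ⁅V, Q ⊓ centralizer ({b} : Set X)⁆ ⊓ ⁅V, Q ⊓ centralizer ({c} : Set X)⁆ : Subgroup X) : Set X) := by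
    intro b hb hb1 c hc hcb x hx
    have hc1 : c ≠ 1 := fun h => hcb (h ▸ one_mem _)
    have hbc : b ∉ zpowers c := fun h => hcb (mem_zpowers_of (hA.pow c hc) h hb1)
    set W := cj x ⁅V, Q ⊓ centralizer ({b} : Set X)⁆ ⊓ ⁅V, Q ⊓ centralizer ({c} : Set X)⁆ with hW
    set K := Q ⊓ centralizer (W : Set X) with hK
    -- general statement on one element
    have hone : ∀ b ∈ A, b ≠ 1 → b ∈ Triv Q (Q ⊓ centralizer ((⁅V, Q ⊓ centralizer ({b} : Set X)⁆ : Subgroup X) : Set X)) := by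
      intro b hb hb1
      have hs := split hA (D := Q ⊓ centralizer ((⁅V, Q ⊓ centralizer ({b} : Set X)⁆ : Subgroup X) : Set X)) hQ.AQ hQ.cAQ hb (by
        intro c hc hcb y hy
        refine ⟨hy.1, mem_centralizer_iff.mpr (fun v hv => ?_)⟩
        exact (h2a b hb hb1 c hc hcb y hy.1 (mem_centralizer_singleton_iff.mp hy.2) v hv).symm)
      refine triv_of ?_ hs (hQ.AQ hb) ?_ (fun e he => (mem_centralizer_singleton_iff.mp he.2).symm)
      · exact inf_le_left.trans (le_normalizer_of_abelian hQc inf_le_left)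
      · exact Basic.le_normalizer_inf hQ.AQ (Basic.le_normalizer_centralizer (Basic.le_normalizer_commutator (hNV A)
          (Basic.le_normalizer_inf hQ.AQ (le_normalizer_centralizer_singleton hA.comm hb)))) hb
    have hcK : c ∈ Triv Q K := by
      refine triv_mono ?_ inf_le_left (hone c hc hc1)
      exact inf_le_inf_left _ (centralizer_le inf_le_right)
    have hbK : x * b * x⁻¹ ∈ Triv Q K := by
      refine triv_mono ?_ inf_le_left (triv_cj (hQ.RQ hx) (hone b hb hb1))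
      rw [Basic.cj_inf, Basic.cj_eq_of_mem_normalizer (hQ.RQ hx), ← Basic.centralizer_cj]
      exact inf_le_inf_left _ (centralizer_le inf_le_left)
    obtain ⟨k, hk, hkA⟩ := exists_cj_le hA hAR hcAR hb hc hb1 hcb hx
    have hB : cj k A ≤ Triv Q K := hkA.trans (sup_le (zpowers_le.mpr hcK) (zpowers_le.mpr hbK))
    have h1 := H1.Coprime.commutator_sup_centralizer (cj k A) Q (by
      rw [← Basic.cj_eq_of_mem_normalizer (hQ.RQ hk), Basic.normalizer_cj]
      exact Basic.cj_mono hQ.AQ) (by rw [Basic.card_cj]; exact hQ.cAQ) (Or.inr (Group.isSolvable_of_comm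
        (fun a b => Subtype.ext (hQc a a.2 b b.2))))
    have h2 : Q ⊓ centralizer ((cj k A : Subgroup X) : Set X) = ⊥ := by
      rw [Basic.centralizer_cj]
      nth_rw 1 [← Basic.cj_eq_of_mem_normalizer (hQ.RQ hk)]
      rw [← Basic.cj_inf, hQ.fix, Basic.cj_bot]
    rw [h2, sup_bot_eq] at h1
    calc Q = ⁅Q, cj k A⁆ := h1.symm
      _ ≤ K := comm_le_of_triv hB
      _ ≤ _ := inf_le_right
  -- (2c)
  have h2c : ∀ b ∈ A, b ≠ 1 → ∀ c ∈ A, c ∉ zpowers b → ∀ x ∈ R,
      Q ⊓ centralizer ({c} : Set X) ≤ centralizer ((cj x ⁅V, Q ⊓ centralizer ({b} : Set X)⁆ : Subgroup X) : Set X) := by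
    intro b hb hb1 c hc hcb x hx
    set M := cj x ⁅V, Q ⊓ centralizer ({b} : Set X)⁆ with hM
    set P := Q ⊓ centralizer ({c} : Set X) with hP
    have hMV : M ≤ V := by
      have h1 : ⁅V, Q ⊓ centralizer ({b} : Set X)⁆ ≤ V := H1.Coprime.commutator_le_of_le_normalizer (hNV _)
      have h2 : cj x V = V := Basic.cj_eq_of_mem_normalizer (hNV ⊤ (mem_top x))
      rw [← h2]
      exact Basic.cj_mono h1
    have hQM : Q ≤ normalizer (M : Set X) := by
      rw [hM, Basic.normalizer_cj]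
      nth_rw 1 [← Basic.cj_eq_of_mem_normalizer (hQ.RQ hx)]
      exact Basic.cj_mono (Basic.le_normalizer_commutator (hNV Q) (le_normalizer_of_abelian hQc inf_le_left))
    have hPM : P ≤ normalizer (M : Set X) := inf_le_left.trans hQM
    have h1 : ⁅M, P⁆ ≤ M ⊓ ⁅V, P⁆ := le_inf (H1.Coprime.commutator_le_of_le_normalizer hPM) (commutator_mono hMV le_rfl)
    have h2 : ⁅⁅M, P⁆, P⁆ = ⊥ := by
      rw [Subgroup.commutator_eq_bot_iff_le_centralizer, Subgroup.le_centralizer_iff]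
      exact (inf_le_left.trans (h2b b hb hb1 c hc hcb x hx)).trans (centralizer_le h1)
    have h3 := H1.Coprime.commutator_commutator_eq P M hPM
      (Nat.Coprime.coprime_dvd_left (Subgroup.card_dvd_of_le inf_le_left) (coprime_of_le hMV hQ.cQV))
      (Or.inr (Group.isSolvable_of_comm (fun a b => Subtype.ext (hV a (hMV a.2) b (hMV b.2)))))
    rw [h2] at h3
    rw [Subgroup.le_centralizer_iff, ← Subgroup.commutator_eq_bot_iff_le_centralizer]
    exact h3.symm
  -- (2d)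
  have h2d : ∀ b ∈ A, b ≠ 1 → Q ⊓ centralizer ({b} : Set X) = ⊥ := by
    intro b hb hb1
    set U := ⁅V, Q ⊓ centralizer ({b} : Set X)⁆ with hU
    have hUA : A ≤ normalizer (U : Set X) := Basic.le_normalizer_commutator (hNV A)
          (Basic.le_normalizer_inf hQ.AQ (le_normalizer_centralizer_singleton hA.comm hb))
    obtain ⟨E, hE, hER, hEA⟩ := exists_core (U := U) hQ.RQ hQ.AQ hAR hUA
    have hEQ : E ≤ Q := fun y hy => ((hE y).mp hy).1
    have hs := split hA (D := E) hQ.AQ hQ.cAQ hb (by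
      intro c hc hcb y hy
      rw [hE]
      refine ⟨hy.1, fun x hx => ?_⟩
      have h1 := h2c b hb hb1 c hc hcb x hx hy
      rw [Basic.centralizer_cj, mem_cj] at h1
      exact h1)
    have h1 := final_step hA ha ha1 hAR hcAR hRA haR hQ hEA hER (le_normalizer_of_abelian hQc hEQ) hb hb1 hs
    rw [hQR] at h1
    apply trivial_of_comm hV inf_le_left hQ.cQV hQ.faith
    intro y hy
    have h2 := ((hE y).mp (h1 hy.1)).2 1 R.one_mem
    rw [inv_one, one_mul, mul_one] at h2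
    exact h2
  rw [eq_bot_iff]
  exact hA.gen hQ.AQ hQ.cAQ (fun b hb hb1 => (h2d b hb hb1).le)

/-- the key proposition -/
theorem key [V.Normal] (hV : ∀ u ∈ V, ∀ v ∈ V, u * v = v * u) (hA : EA p A) (ha : a ∈ A) (ha1 : a ≠ 1)
    (hAR : A ≤ normalizer (R : Set X)) (hcAR : (Nat.card A).Coprime (Nat.card R))
    (hRA : R ⊓ centralizer (A : Set X) = ⊥) (haR : ∀ x ∈ R, x * a = a * x) [hq : Fact q.Prime] :
    ∀ (n : ℕ) (Q : Subgroup X), Nat.card Q = n → Hyp A V R a q Q → ⁅Q, R⁆ = ⊥ := by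
  intro n
  induction n using Nat.strong_induction_on with
  | _ n ih =>
  intro Q hn hQ
  have hKQ : ⁅Q, R⁆ ≤ Q := H1.Coprime.commutator_le_of_le_normalizer hQ.RQ
  have hQsol : Group.IsSolvable Q := by
    have : Group.IsNilpotent Q := hQ.pg.isNilpotent
    infer_instance
  by_cases hlt : ⁅Q, R⁆ = Q
  · -- the centre
    set Z := Q ⊓ centralizer (Q : Set X) with hZ
    have hZA : A ≤ normalizer (Z : Set X) := Basic.le_normalizer_inf hQ.AQ (Basic.le_normalizer_centralizer hQ.AQ)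
    have hZR : R ≤ normalizer (Z : Set X) := Basic.le_normalizer_inf hQ.RQ (Basic.le_normalizer_centralizer hQ.RQ)
    by_cases hZQ : Z = Q
    · have hQc : ∀ x ∈ Q, ∀ y ∈ Q, x * y = y * x := by
        intro x hx y hy
        have h1 : y ∈ Z := hZQ.symm ▸ hy
        exact mem_centralizer_iff.mp h1.2 x hx
      have h1 := step2 hV hA ha ha1 hAR hcAR hRA haR hQ hlt hQc
      rw [hlt, h1]
    · have hZlt : Z < Q := lt_of_le_of_ne inf_le_left hZQ
      have h1 := ih (Nat.card Z) (hn ▸ Basic.card_lt_of_lt hZlt) Z rfl (hQ.mono inf_le_left hZA hZR)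
      have h2 : Z = ⊥ := step1 hV hA ha ha1 hAR hcAR hRA haR hQ hlt inf_le_left inf_le_right
        (Subgroup.commutator_eq_bot_iff_le_centralizer.mp h1) hZA
      -- a nontrivial p-group has nontrivial centre
      have h3 : Q = ⊥ := by
        by_contra hne
        have hnt : Nontrivial Q := (Subgroup.nontrivial_iff_ne_bot _).mpr hne
        have := hQ.pg.center_nontrivial
        obtain ⟨⟨z, hz⟩, hz1⟩ := exists_ne (1 : Subgroup.center Q)
        apply hz1
        have h4 : (z : X) ∈ Z := by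
          refine ⟨z.2, mem_centralizer_iff.mpr (fun y hy => ?_)⟩
          have := Subgroup.mem_center_iff.mp hz ⟨y, hy⟩
          exact congrArg Subtype.val this
        rw [h2] at h4
        apply Subtype.ext
        apply Subtype.ext
        exact Subgroup.mem_bot.mp h4
      rw [hlt, h3]
  · have hKlt : ⁅Q, R⁆ < Q := lt_of_le_of_ne hKQ hlt
    have hKA : A ≤ normalizer ((⁅Q, R⁆ : Subgroup X) : Set X) := Basic.le_normalizer_commutator hQ.AQ hAR
    have hKR : R ≤ normalizer ((⁅Q, R⁆ : Subgroup X) : Set X) := Basic.le_normalizer_commutator hQ.RQ Subgroup.le_normalizer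
    have h1 := ih (Nat.card (⁅Q, R⁆ : Subgroup X)) (hn ▸ Basic.card_lt_of_lt hKlt) ⁅Q, R⁆ rfl (hQ.mono hKQ hKA hKR)
    rw [H1.Coprime.commutator_commutator_eq R Q hQ.RQ hQ.cRQ (Or.inr hQsol)] at h1
    exact h1

end Cfsg.Agent.H22.Ward
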