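import Mathlib

/-! Two primes between `n/2` and `n` for `n ≥ 11`. -/

set_option autoImplicit false

namespace Cfsg.Agent.H23.TwoPrimes

open Real in
theorem real_ineq {x : ℝ} (x_large : (512 : ℝ) ≤ x) :
    x * (2 * x) * (2 * x) ^ √(2 * x) * 4 ^ (2 * x / 3) ≤ 4 ^ x := by
  let f : ℝ → ℝ := fun x => log x + (log 2 + log x) + √(2 * x) * log (2 * x) - log 4 / 3 * x
  have hf' : ∀ x, 0 < x → 0 < x * (2 * x) * (2 * x) ^ √(2 * x) / 4 ^ (x / 3) := fun x h =>
    div_pos (mul_pos (mul_pos h (mul_pos two_pos h)) (rpow_pos_of_pos (mul_pos two_pos h) _)) (rpow_pos_of_pos four_pos _)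
  have hf : ∀ x, 0 < x → f x = log (x * (2 * x) * (2 * x) ^ √(2 * x) / 4 ^ (x / 3)) := by
    intro x h5
    have h6 := mul_pos (zero_lt_two' ℝ) h5
    have h7 := rpow_pos_of_pos h6 (√(2 * x))
    rw [log_div (mul_pos (mul_pos h5 h6) h7).ne' (rpow_pos_of_pos four_pos _).ne', log_mul (mul_pos h5 h6).ne' h7.ne',
      log_mul h5.ne' h6.ne', log_mul (by norm_num) h5.ne',
      log_rpow h6, log_rpow zero_lt_four, ← mul_div_right_comm, ← mul_div, mul_comm x]
  have h5 : 0 < x := lt_of_lt_of_le (by norm_num1) x_large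
  rw [← div_le_one (rpow_pos_of_pos four_pos x), ← div_div_eq_mul_div, ← rpow_sub four_pos, ←
    mul_div 2 x, mul_div_left_comm, ← mul_one_sub, (by norm_num1 : (1 : ℝ) - 2 / 3 = 1 / 3),
    mul_one_div, ← log_nonpos_iff (hf' x h5).le, ← hf x h5]
  have h : ConcaveOn ℝ (Set.Ioi 0.5) f := by
    apply ConcaveOn.sub
    · apply ConcaveOn.add
      · apply ConcaveOn.add
        · exact strictConcaveOn_log_Ioi.concaveOn.subset
            (Set.Ioi_subset_Ioi (by norm_num)) (convex_Ioi 0.5)
        · apply ConcaveOn.add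
          · exact concaveOn_const _ (convex_Ioi 0.5)
          · exact strictConcaveOn_log_Ioi.concaveOn.subset
              (Set.Ioi_subset_Ioi (by norm_num)) (convex_Ioi 0.5)
      convert!
        ((strictConcaveOn_sqrt_mul_log_Ioi.concaveOn.comp_linearMap ((2 : ℝ) • LinearMap.id)))
        using 1
      ext x
      simp only [Set.mem_Ioi, Set.mem_preimage, LinearMap.smul_apply,
        LinearMap.id_coe, id_eq, smul_eq_mul]
      rw [← mul_lt_mul_iff_right₀ (two_pos)]
      norm_num1
      rfl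
    apply ConvexOn.smul
    · refine div_nonneg (log_nonneg (by norm_num1)) (by norm_num1)
    · exact convexOn_id (convex_Ioi (0.5 : ℝ))
  suffices ∃ x1 x2, 0.5 < x1 ∧ x1 < x2 ∧ x2 ≤ x ∧ 0 ≤ f x1 ∧ f x2 ≤ 0 by
    obtain ⟨x1, x2, h1, h2, h0, h3, h4⟩ := this
    exact (h.right_le_of_le_left'' h1 ((h1.trans h2).trans_le h0) h2 h0 (h4.trans h3)).trans h4
  refine ⟨18, 512, by norm_num1, by norm_num1, x_large, ?_, ?_⟩
  · have : √(2 * 18 : ℝ) = 6 := (sqrt_eq_iff_mul_self_eq_of_pos (by norm_num1)).mpr (by norm_num1)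
    rw [hf _ (by norm_num1), log_nonneg_iff (by positivity), this, one_le_div (by norm_num1)]
    norm_num1
  · have : √(2 * 512) = 32 :=
      (sqrt_eq_iff_mul_self_eq_of_pos (by norm_num1)).mpr (by norm_num1)
    rw [hf _ (by norm_num1), log_nonpos_iff (hf' _ (by norm_num1)).le, this,
        div_le_one (by positivity)]
    have e1 : (512 : ℝ) * (2 * 512) * (2 * 512) ^ (32 : ℝ) = 2 ^ (339 : ℝ) := by
      rw [show (32 : ℝ) = ((32 : ℕ) : ℝ) by norm_num, show (339 : ℝ) = ((339 : ℕ) : ℝ) by norm_num, rpow_natCast, rpow_natCast]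
      have a1 : (2 * 512 : ℝ) = 2 ^ 10 := by norm_num
      have a2 : (512 : ℝ) = 2 ^ 9 := by norm_num
      rw [a1, a2, ← pow_mul, ← pow_add, ← pow_add]
    rw [e1, show (4 : ℝ) = 2 ^ (2 : ℝ) by rw [rpow_two]; norm_num1, ← rpow_mul (by norm_num)]
    apply rpow_le_rpow_of_exponent_le
    all_goals norm_num1

theorem main_ineq {n : ℕ} (n_large : 512 ≤ n) :
    n * (2 * n) * (2 * n) ^ Nat.sqrt (2 * n) * 4 ^ (2 * n / 3) ≤ 4 ^ n := by
  rw [← @Nat.cast_le ℝ]
  simp only [Nat.cast_mul, Nat.cast_pow, ← Real.rpow_natCast, Nat.cast_ofNat]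
  refine _root_.trans ?_ (real_ineq (by exact_mod_cast n_large))
  gcongr
  · have n2_pos : 0 < 2 * n := by positivity
    exact mod_cast n2_pos
  · exact_mod_cast Real.nat_sqrt_le_real_sqrt
  · norm_num1
  · exact Nat.cast_div_le.trans (by norm_cast)

theorem cb_small (n q : ℕ) (n_large : 2 < n)
    (no_prime : ∀ p : ℕ, p.Prime → n < p → p ≠ q → 2 * n < p) :
    n.centralBinom ≤ (2 * n) * ∏ p ∈ Finset.range (2 * n / 3 + 1), p ^ (n.centralBinom).factorization p := by
  have h2n : 0 < 2 * n := by omega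
  have h1 : n.centralBinom = ∏ p ∈ Finset.range (2 * n + 1), p ^ (n.centralBinom).factorization p :=
    (n.prod_pow_factorization_centralBinom).symm
  conv_lhs => rw [h1]
  rw [← Finset.prod_filter_mul_prod_filter_not (Finset.range (2 * n + 1)) (· = q)]
  apply Nat.mul_le_mul
  · rw [Finset.filter_eq']
    split_ifs
    · rw [Finset.prod_singleton]
      exact Nat.pow_factorization_choose_le h2n
    · rw [Finset.prod_empty]; omega
  · rw [← Finset.prod_filter_mul_prod_filter_not (Finset.filter (fun p => ¬ p = q) (Finset.range (2 * n + 1))) (fun p => p < 2 * n / 3 + 1)]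
    have h3 : ∏ p ∈ Finset.filter (fun p => ¬ p < 2 * n / 3 + 1) (Finset.filter (fun p => ¬ p = q) (Finset.range (2 * n + 1))),
        p ^ (n.centralBinom).factorization p = 1 := by
      apply Finset.prod_eq_one
      intro x hx
      rw [Finset.mem_filter, Finset.mem_filter, Finset.mem_range] at hx
      obtain ⟨⟨hx, hxq⟩, h2x⟩ := hx
      by_cases hp : x.Prime
      · by_cases hxn : x ≤ n
        · rw [Nat.factorization_centralBinom_of_two_mul_self_lt_three_mul n_large hxn (by omega), pow_zero]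
        · have := no_prime x hp (by omega) hxq
          omega
      · rw [Nat.factorization_eq_zero_of_not_prime n.centralBinom hp, pow_zero]
    rw [h3, mul_one]
    apply Finset.prod_le_prod_of_subset_of_one_le'
    · intro x hx
      rw [Finset.mem_filter] at hx
      exact Finset.mem_range.2 hx.2
    · intro x _ _
      by_cases hp : x.Prime
      · exact Nat.one_le_pow _ _ hp.pos
      · rw [Nat.factorization_eq_zero_of_not_prime n.centralBinom hp, pow_zero]

theorem cb_le (n q : ℕ) (n_large : 2 < n)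
    (no_prime : ∀ p : ℕ, p.Prime → n < p → p ≠ q → 2 * n < p) :
    n.centralBinom ≤ (2 * n) * ((2 * n) ^ Nat.sqrt (2 * n) * 4 ^ (2 * n / 3)) := by
  have n_pos : 0 < n := (Nat.zero_le _).trans_lt n_large
  have n2_pos : 1 ≤ 2 * n := mul_pos (zero_lt_two' ℕ) n_pos
  let S := {p ∈ Finset.range (2 * n / 3 + 1) | Nat.Prime p}
  let f x := x ^ n.centralBinom.factorization x
  have : ∏ x ∈ S, f x = ∏ x ∈ Finset.range (2 * n / 3 + 1), f x := by
    refine Finset.prod_filter_of_ne fun p _ h => ?_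
    contrapose h; dsimp only [f]
    rw [Nat.factorization_eq_zero_of_not_prime n.centralBinom h, _root_.pow_zero]
  refine (cb_small n q n_large no_prime).trans (Nat.mul_le_mul le_rfl ?_)
  rw [← this, ← Finset.prod_filter_mul_prod_filter_not S (· ≤ Nat.sqrt (2 * n))]
  apply mul_le_mul'
  · refine (Finset.prod_le_prod' fun p _ => (?_ : f p ≤ 2 * n)).trans ?_
    · exact Nat.pow_factorization_choose_le (mul_pos two_pos n_pos)
    have : (Finset.Icc 1 (Nat.sqrt (2 * n))).card = Nat.sqrt (2 * n) := by rw [Nat.card_Icc, Nat.add_sub_cancel]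
    rw [Finset.prod_const]
    refine pow_right_mono₀ n2_pos ((Finset.card_le_card fun x hx => ?_).trans this.le)
    obtain ⟨h1, h2⟩ := Finset.mem_filter.1 hx
    exact Finset.mem_Icc.mpr ⟨(Finset.mem_filter.1 h1).2.one_lt.le, h2⟩
  · refine le_trans ?_ (primorial_le_four_pow (2 * n / 3))
    refine (Finset.prod_le_prod' fun p hp => (?_ : f p ≤ p)).trans ?_
    · obtain ⟨h1, h2⟩ := Finset.mem_filter.1 hp
      refine (pow_right_mono₀ (Finset.mem_filter.1 h1).2.one_lt.le ?_).trans (pow_one p).le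
      exact Nat.factorization_choose_le_one (Nat.sqrt_lt'.mp <| not_le.1 h2)
    refine Finset.prod_le_prod_of_subset_of_one_le' (Finset.filter_subset _ _) ?_
    exact fun p hp _ => (Finset.mem_filter.1 hp).2.one_lt.le

theorem eventually (n : ℕ) (n_large : 512 ≤ n) (q : ℕ) :
    ∃ p : ℕ, p.Prime ∧ n < p ∧ p ≠ q ∧ p ≤ 2 * n := by
  have no_prime : 4 ^ n < n * n.centralBinom :=
    Nat.four_pow_lt_mul_centralBinom n (le_trans (by norm_num1) n_large)
  contrapose! no_prime
  have := cb_le n q (lt_of_lt_of_le (by norm_num1) n_large) no_prime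
  calc n * n.centralBinom ≤ n * ((2 * n) * ((2 * n) ^ Nat.sqrt (2 * n) * 4 ^ (2 * n / 3))) := Nat.mul_le_mul le_rfl this
    _ = n * (2 * n) * (2 * n) ^ Nat.sqrt (2 * n) * 4 ^ (2 * n / 3) := by ring
    _ ≤ 4 ^ n := main_ineq n_large

theorem two_primes (n : ℕ) (hn : 11 ≤ n) :
    ∃ p q : ℕ, p.Prime ∧ q.Prime ∧ p ≠ q ∧ n < 2 * p ∧ n < 2 * q ∧ p ≤ n ∧ q ≤ n := by
  by_cases h : n < 1024
  · have key : ∀ p q : ℕ, p.Prime → q.Prime → p < q → q ≤ n → n < 2 * p →
        ∃ p q : ℕ, p.Prime ∧ q.Prime ∧ p ≠ q ∧ n < 2 * p ∧ n < 2 * q ∧ p ≤ n ∧ q ≤ n :=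
      fun p q hp hq hpq hqn hnp => ⟨p, q, hp, hq, by omega, hnp, by omega, by omega, hqn⟩
    by_cases h1 : n < 14
    · exact key 7 11 (by norm_num) (by norm_num) (by norm_num) (by omega) (by omega)
    by_cases h2 : n < 22
    · exact key 11 13 (by norm_num) (by norm_num) (by norm_num) (by omega) (by omega)
    by_cases h3 : n < 34
    · exact key 17 19 (by norm_num) (by norm_num) (by norm_num) (by omega) (by omega)
    by_cases h4 : n < 58
    · exact key 29 31 (by norm_num) (by norm_num) (by norm_num) (by omega) (by omega)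
    by_cases h5 : n < 94
    · exact key 47 53 (by norm_num) (by norm_num) (by norm_num) (by omega) (by omega)
    by_cases h6 : n < 166
    · exact key 83 89 (by norm_num) (by norm_num) (by norm_num) (by omega) (by omega)
    by_cases h7 : n < 314
    · exact key 157 163 (by norm_num) (by norm_num) (by norm_num) (by omega) (by omega)
    by_cases h8 : n < 614
    · exact key 307 311 (by norm_num) (by norm_num) (by norm_num) (by omega) (by omega)
    · exact key 607 613 (by norm_num) (by norm_num) (by norm_num) (by omega) (by omega)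
  · have hm : 512 ≤ n / 2 := by omega
    obtain ⟨q, hq, hq1, -, hq2⟩ := eventually (n / 2) hm 0
    obtain ⟨p, hp, hp1, hpq, hp2⟩ := eventually (n / 2) hm q
    exact ⟨p, q, hp, hq, hpq, by omega, by omega, by omega, by omega⟩

end Cfsg.Agent.H23.TwoPrimes
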