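import Mathlib
import Cfsg.Agent.H23_TwoPrimes
import Cfsg.Agent.H24_Tools

/-! Element orders in alternating groups, normal structure of groups with the same order and spectrum. -/

set_option autoImplicit false

namespace Cfsg.Agent.H23.AltSpec

open Subgroup

theorem exists_dvd_mem {p : ℕ} (hp : p.Prime) (s : Multiset ℕ) (h : p ∣ s.lcm) : ∃ a ∈ s, p ∣ a := by
  induction s using Multiset.induction_on with
  | empty => 
    rw [Multiset.lcm_zero] at h
    exact absurd (Nat.dvd_one.1 h) hp.ne_one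
  | cons a s ih =>
    rw [Multiset.lcm_cons] at h
    have h2 : p ∣ a * s.lcm := h.trans (by
      have := Nat.lcm_dvd_mul a s.lcm
      exact this)
    rcases hp.dvd_mul.1 h2 with h3 | h3
    · exact ⟨a, Multiset.mem_cons_self _ _, h3⟩
    · obtain ⟨b, hb, hpb⟩ := ih h3
      exact ⟨b, Multiset.mem_cons_of_mem hb, hpb⟩

theorem perm_order {n : ℕ} (g : Equiv.Perm (Fin n)) {p q : ℕ} (hp : p.Prime) (hq : q.Prime) (hpq : p ≠ q)
    (h1 : p ∣ orderOf g) (h2 : q ∣ orderOf g) : p + q ≤ n := by
  rw [← Equiv.Perm.lcm_cycleType] at h1 h2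
  obtain ⟨a, ha, hpa⟩ := exists_dvd_mem hp _ h1
  obtain ⟨b, hb, hqb⟩ := exists_dvd_mem hq _ h2
  have hs := Equiv.Perm.sum_cycleType_le g
  rw [Fintype.card_fin] at hs
  have ha2 := Equiv.Perm.two_le_of_mem_cycleType ha
  have hb2 := Equiv.Perm.two_le_of_mem_cycleType hb
  by_cases hab : a = b
  · subst hab
    have h3 : p * q ∣ a := Nat.Coprime.mul_dvd_of_dvd_of_dvd ((Nat.coprime_primes hp hq).2 hpq) hpa hqb
    have h4 := Nat.le_of_dvd (by omega) h3
    have h5 : p + q ≤ p * q := by
      have := hp.two_le; have := hq.two_le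
      nlinarith
    have h6 : a ≤ g.cycleType.sum := Multiset.le_sum_of_mem ha
    omega
  · have h3 : a + b ≤ g.cycleType.sum := by
      obtain ⟨t, ht⟩ := Multiset.exists_cons_of_mem ha
      rw [ht] at hb ⊢
      rw [Multiset.mem_cons] at hb
      have hb' : b ∈ t := by
        rcases hb with hb | hb
        · exact absurd hb.symm hab
        · exact hb
      rw [Multiset.sum_cons]
      have := Multiset.le_sum_of_mem hb'
      omega
    have := Nat.le_of_dvd (by omega) hpa
    have := Nat.le_of_dvd (by omega) hqb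
    omega

theorem spec_order {G : Type*} [Group G] [Finite G] {n : ℕ}
    (hspec : Set.range (orderOf : G → ℕ) = Set.range (orderOf : ↥(alternatingGroup (Fin n)) → ℕ))
    (g : G) {p q : ℕ} (hp : p.Prime) (hq : q.Prime) (hpq : p ≠ q)
    (h1 : p ∣ orderOf g) (h2 : q ∣ orderOf g) : p + q ≤ n := by
  have : orderOf g ∈ Set.range (orderOf : ↥(alternatingGroup (Fin n)) → ℕ) := hspec ▸ ⟨g, rfl⟩
  obtain ⟨a, ha⟩ := this
  rw [← ha, ← Subgroup.orderOf_coe] at h1 h2
  exact perm_order (a : Equiv.Perm (Fin n)) hp hq hpq h1 h2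

theorem sq_not_dvd_fact {p : ℕ} (hp : p.Prime) : ∀ j : ℕ, j < p → ¬ p ^ 2 ∣ (p + j).factorial := by
  intro j
  induction j with
  | zero =>
    intro _ h
    obtain ⟨k, hk⟩ : ∃ k, p = k + 1 := ⟨p - 1, by have := hp.pos; omega⟩
    rw [add_zero, sq, hk, Nat.factorial_succ] at h
    have h2 := Nat.dvd_of_mul_dvd_mul_left (by omega : 0 < k + 1) h
    rw [← hk, hp.dvd_factorial] at h2
    omega
  | succ j ih =>
    intro hj h
    rw [← add_assoc, Nat.factorial_succ] at h
    have h1 : ¬ p ∣ p + j + 1 := by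
      intro h1
      rw [add_assoc, Nat.dvd_add_right (dvd_refl p)] at h1
      have := Nat.le_of_dvd (by omega) h1
      have h3 : j + 1 < p := hj
      omega
    have h2 : (p ^ 2).Coprime (p + j + 1) := Nat.Coprime.pow_left 2 ((Nat.Prime.coprime_iff_not_dvd hp).2 h1)
    exact ih (by omega) (h2.dvd_of_dvd_mul_left h)

theorem sq_not_dvd {p n : ℕ} (hp : p.Prime) (h1 : n < 2 * p) (h2 : p ≤ n) : ¬ p ^ 2 ∣ n.factorial := by
  obtain ⟨j, rfl⟩ := Nat.exists_eq_add_of_le h2
  exact sq_not_dvd_fact hp j (by omega)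

/-- an element of order divisible by a prime `q` normalizing a subgroup of prime order `p`, `q ∤ p - 1` -/
theorem commute_of_normalizes {G : Type*} [Group G] [Finite G] (P : Subgroup G) {p q : ℕ} (hp : p.Prime) (hq : q.Prime)
    (hP : Nat.card P = p) (x : G) (hx : x ∈ normalizer (P : Set G)) (hxq : orderOf x = q) (hqp : ¬ q ∣ p - 1) :
    ∀ y ∈ P, x * y = y * x := by
  haveI : Fact p.Prime := ⟨hp⟩
  haveI : IsCyclic P := isCyclic_of_prime_card hP
  set φ := P.normalizerMonoidHom with hφ
  have h1 : orderOf (φ ⟨x, hx⟩) ∣ q := by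
    have := orderOf_map_dvd φ ⟨x, hx⟩
    rwa [Subgroup.orderOf_mk, hxq] at this
  have h2 : orderOf (φ ⟨x, hx⟩) ∣ p - 1 := by
    have := orderOf_dvd_natCard (φ ⟨x, hx⟩)
    rwa [IsCyclic.card_mulAut, hP, Nat.totient_prime hp] at this
  have h3 : orderOf (φ ⟨x, hx⟩) = 1 := by
    rcases (Nat.dvd_prime hq).1 h1 with h | h
    · exact h
    · rw [h] at h2; exact absurd h2 hqp
  rw [orderOf_eq_one_iff] at h3
  have h4 : (⟨x, hx⟩ : normalizer (P : Set G)) ∈ φ.ker := h3
  rw [hφ, Subgroup.normalizerMonoidHom_ker, mem_subgroupOf, mem_centralizer_iff] at h4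
  intro y hy
  exact (h4 y hy).symm

theorem exists_order_mul {G : Type*} [Group G] [Finite G] (P : Subgroup G) {p q : ℕ} (hp : p.Prime) (hq : q.Prime) (hpq : p ≠ q)
    (hP : Nat.card P = p) (x : G) (hx : x ∈ normalizer (P : Set G)) (hxq : orderOf x = q) (hqp : ¬ q ∣ p - 1) :
    ∃ g : G, p ∣ orderOf g ∧ q ∣ orderOf g := by
  haveI : Fact p.Prime := ⟨hp⟩
  obtain ⟨y, hy⟩ := exists_prime_orderOf_dvd_card' p (hP ▸ dvd_refl _ : p ∣ Nat.card P)
  have hc : Commute x (y : G) := commute_of_normalizes P hp hq hP x hx hxq hqp y y.2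
  have hy' : orderOf (y : G) = p := by rw [Subgroup.orderOf_coe, hy]
  have h := hc.orderOf_mul_eq_mul_orderOf_of_coprime (by rw [hxq, hy']; exact (Nat.coprime_primes hq hp).2 hpq.symm)
  refine ⟨x * y, ?_, ?_⟩
  · rw [h, hy']; exact dvd_mul_left _ _
  · rw [h, hxq]; exact dvd_mul_right _ _

/-- Frattini version: `q ∣ |G|`, `q ∤ |H|`, `H` normal with Sylow `p` of order `p`. -/
theorem exists_order_mul_frattini {G : Type*} [Group G] [Finite G] (H : Subgroup G) [H.Normal] {p q : ℕ} (hp : p.Prime) (hq : q.Prime) (hpq : p ≠ q)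
    (hH : p ∣ Nat.card H) (hH2 : ¬ p ^ 2 ∣ Nat.card H) (hqG : q ∣ Nat.card G) (hqH : ¬ q ∣ Nat.card H) (hqp : ¬ q ∣ p - 1) :
    ∃ g : G, p ∣ orderOf g ∧ q ∣ orderOf g := by
  haveI : Fact p.Prime := ⟨hp⟩
  haveI : Fact q.Prime := ⟨hq⟩
  obtain ⟨P⟩ : Nonempty (Sylow p H) := inferInstance
  have hPc : Nat.card P = p := by
    have h1 := P.card_eq_multiplicity
    have h2 : (Nat.card H).factorization p = 1 := by
      have h3 := (hp.pow_dvd_iff_le_factorization (Nat.card_pos (α := H)).ne' (k := 1)).1 (by rwa [pow_one])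
      have h4 := mt (hp.pow_dvd_iff_le_factorization (Nat.card_pos (α := H)).ne' (k := 2)).2 hH2
      omega
    rw [h2, pow_one] at h1
    exact h1
  set P' : Subgroup G := (P : Subgroup H).map H.subtype with hP'
  have hP'c : Nat.card P' = p := by
    rw [hP', Subgroup.card_map_of_injective H.subtype_injective]
    exact hPc
  have hfr : normalizer (P' : Set G) ⊔ H = ⊤ := Sylow.normalizer_sup_eq_top P
  have hqN : q ∣ Nat.card (normalizer (P' : Set G)) := by
    have h1 := Subgroup.relIndex_sup_right (H := normalizer (P' : Set G)) (K := H)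
    have h2 : H.relIndex (normalizer (P' : Set G)) = H.index := by
      rw [← Subgroup.relIndex_top_right, ← hfr, Subgroup.relIndex_sup_right]
    have h3 : q ∣ H.index := by
      have := H.card_mul_index
      rw [← this] at hqG
      exact (hq.dvd_mul.1 hqG).resolve_left hqH
    rw [← h2] at h3
    exact h3.trans (Subgroup.relIndex_dvd_card _ _)
  obtain ⟨x, hx⟩ := exists_prime_orderOf_dvd_card' q hqN
  exact exists_order_mul P' hp hq hpq hP'c x x.2 (by rw [Subgroup.orderOf_coe, hx]) hqp

theorem not_dvd_sub_one {p q n : ℕ} (hp : p.Prime) (hq : q.Prime) (hn : 7 ≤ n) (h1 : n < 2 * p) (h2 : n < 2 * q) (h3 : p ≤ n) : ¬ q ∣ p - 1 := by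
  rintro ⟨k, hk⟩
  have hp5 : p ≠ 2 := by omega
  have hq5 : q ≠ 2 := by omega
  rcases k with _ | _ | k
  · omega
  · have h4 := hp.eq_two_or_odd
    have h5 := hq.eq_two_or_odd
    omega
  · have : q * (k + 1 + 1) = q * k + 2 * q := by ring
    rw [this] at hk
    have : 0 ≤ q * k := Nat.zero_le _
    omega

end Cfsg.Agent.H23.AltSpec

namespace Cfsg.Agent.H23.AltSpec

open Subgroup

theorem card_sup_dvd {G : Type*} [Group G] [Finite G] (A B : Subgroup G) [B.Normal] :
    Nat.card ↥(A ⊔ B) ∣ Nat.card A * Nat.card B := by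
  have h1 : Nat.card B * B.relIndex (A ⊔ B) = Nat.card ↥(A ⊔ B) := by
    exact Cfsg.Agent.H24.Tools.card_mul_relIndex le_sup_right
  rw [← h1, Subgroup.relIndex_sup_right, mul_comm]
  exact mul_dvd_mul (Subgroup.relIndex_dvd_card _ _) dvd_rfl

theorem simple_section {G : Type*} [Group G] [Finite G] (N H : Subgroup G) [N.Normal] [H.Normal] (hNH : N < H)
    (hmin : ∀ M : Subgroup G, M.Normal → N < M → M ≤ H → M = H) {p : ℕ} (hp : p.Prime)
    (hpH : p ∣ Nat.card H) (hp2 : ¬ p ^ 2 ∣ Nat.card H) (hpN : ¬ p ∣ Nat.card N) :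
    IsSimpleGroup (H ⧸ N.subgroupOf H) := by
  haveI : Fact p.Prime := ⟨hp⟩
  -- the largest normal p'-subgroup of H
  obtain ⟨A, hA, hAmax⟩ := Set.exists_max_image {A : Subgroup H | A.Normal ∧ ¬ p ∣ Nat.card A} (fun A => Nat.card A)
    (Set.toFinite _) ⟨⊥, inferInstance, by rw [Subgroup.card_bot]; exact hp.not_dvd_one⟩
  obtain ⟨hAn, hAp⟩ := hA
  have hAle : ∀ B : Subgroup H, B.Normal → ¬ p ∣ Nat.card B → B ≤ A := by
    intro B hB hBp
    have h1 : A ⊔ B ∈ {A : Subgroup H | A.Normal ∧ ¬ p ∣ Nat.card A} := by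
      refine ⟨inferInstance, fun h => ?_⟩
      rcases hp.dvd_mul.1 (h.trans (card_sup_dvd A B)) with h | h
      · exact hAp h
      · exact hBp h
    have h2 : A = A ⊔ B := Subgroup.eq_of_le_of_card_ge le_sup_left (hAmax _ h1)
    rw [h2]; exact le_sup_right
  haveI hAc : A.Characteristic := by
    rw [Subgroup.characteristic_iff_map_le]
    intro φ
    apply hAle
    · exact hAn.map _ φ.surjective
    · rw [Subgroup.card_map_of_injective (f := φ.toMonoidHom) φ.injective]; exact hAp
  have hNA : N.subgroupOf H ≤ A := by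
    apply hAle _ inferInstance
    rw [← Subgroup.card_map_of_injective (f := H.subtype) H.subtype_injective, Subgroup.subgroupOf_map_subtype, inf_eq_left.2 hNH.le]
    exact hpN
  have hAN : A = N.subgroupOf H := by
    have h1 : N ≤ A.map H.subtype := by
      have := Subgroup.map_mono (f := H.subtype) hNA
      rwa [Subgroup.subgroupOf_map_subtype, inf_eq_left.2 hNH.le] at this
    rcases h1.eq_or_lt with h2 | h2
    · apply le_antisymm _ hNA
      intro a ha
      rw [mem_subgroupOf, h2]
      exact mem_map_of_mem _ ha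
    · exfalso
      have h3 := hmin (A.map H.subtype) inferInstance h2 (Subgroup.map_subtype_le _)
      apply hAp
      rw [← Subgroup.card_map_of_injective (f := H.subtype) H.subtype_injective, h3]
      exact hpH
  -- the subgroup generated by the elements of order p
  set X : Subgroup H := closure {x : H | orderOf x = p} with hX
  haveI hXc : X.Characteristic := by
    rw [Subgroup.characteristic_iff_map_le]
    intro φ
    rw [hX, MonoidHom.map_closure, Subgroup.closure_le]
    rintro _ ⟨x, hx, rfl⟩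
    apply Subgroup.subset_closure
    change orderOf (φ x) = p
    rw [MulEquiv.orderOf_eq]
    exact hx
  obtain ⟨x0, hx0⟩ := exists_prime_orderOf_dvd_card' p hpH
  have hx0X : x0 ∈ X := Subgroup.subset_closure hx0
  have hXN : X ⊔ N.subgroupOf H = ⊤ := by
    have h1 : N < X.map H.subtype ⊔ N := by
      refine lt_of_le_of_ne le_sup_right ?_
      intro h
      have h2 : (x0 : G) ∈ N := by
        rw [h]
        exact mem_sup_left (mem_map_of_mem H.subtype hx0X)
      apply hpN
      have h3 := Subgroup.orderOf_dvd_natCard N h2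
      rwa [Subgroup.orderOf_coe, hx0] at h3
    have h2 := hmin _ inferInstance h1 (sup_le (Subgroup.map_subtype_le _) hNH.le)
    have h3 : (X ⊔ N.subgroupOf H).map H.subtype = (⊤ : Subgroup H).map H.subtype := by
      rw [Subgroup.map_sup, Subgroup.subgroupOf_map_subtype, inf_eq_left.2 hNH.le, h2, ← MonoidHom.range_eq_map, Subgroup.range_subtype]
    exact Subgroup.map_injective H.subtype_injective h3
  haveI : Nontrivial (H ⧸ N.subgroupOf H) := by
    rw [QuotientGroup.nontrivial_iff]
    intro h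
    rw [Subgroup.subgroupOf_eq_top] at h
    exact absurd h (not_le_of_gt hNH)
  refine ⟨fun L hL => ?_⟩
  set B := L.comap (QuotientGroup.mk' (N.subgroupOf H)) with hB
  haveI : B.Normal := inferInstance
  have hNB : N.subgroupOf H ≤ B := by
    intro a ha
    rw [hB, mem_comap]
    have : QuotientGroup.mk' (N.subgroupOf H) a = 1 := (QuotientGroup.eq_one_iff a).2 ha
    rw [this]; exact one_mem _
  by_cases hpB : p ∣ Nat.card B
  · right
    have hXB : X ≤ B := by
      rw [hX, Subgroup.closure_le]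
      intro x hx
      have hx' : orderOf x = p := hx
      have hi : ¬ p ∣ B.index := by
        intro h
        apply hp2
        rw [← B.card_mul_index, sq]
        exact mul_dvd_mul hpB h
      have h1 : orderOf (x : H ⧸ B) ∣ p := hx' ▸ (orderOf_map_dvd (QuotientGroup.mk' B) x)
      have h2 : orderOf (x : H ⧸ B) ∣ B.index := orderOf_dvd_natCard _
      have h3 : orderOf (x : H ⧸ B) = 1 := by
        rcases (Nat.dvd_prime hp).1 h1 with h | h
        · exact h
        · rw [h] at h2; exact absurd h2 hi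
      rw [orderOf_eq_one_iff] at h3
      exact (QuotientGroup.eq_one_iff x).1 h3
    have hBt : B = ⊤ := by
      rw [eq_top_iff, ← hXN]
      exact sup_le hXB hNB
    rw [eq_top_iff]
    intro y _
    obtain ⟨y, rfl⟩ := QuotientGroup.mk'_surjective _ y
    have : y ∈ B := by rw [hBt]; exact mem_top y
    exact this
  · left
    have h1 := hAle B inferInstance hpB
    rw [hAN] at h1
    rw [eq_bot_iff]
    intro y hy
    obtain ⟨y, rfl⟩ := QuotientGroup.mk'_surjective _ y
    have h2 : y ∈ B := hy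
    rw [mem_bot]
    exact (QuotientGroup.eq_one_iff y).2 (h1 h2)

end Cfsg.Agent.H23.AltSpec
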