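import Mathlib
import Cfsg.Agent.H2_Basic
import Cfsg.Agent.H23_Basic
import Cfsg.Agent.H23_Regular
import Cfsg.Agent.H23_ClassSize
import Cfsg.Agent.H23_ClassSize2

/-! H23_DirF: Sylow subgroups that are direct factors. -/

set_option autoImplicit false

namespace Cfsg.Agent.H23.DirF
open Cfsg Cfsg.Agent Subgroup

variable {G : Type*} [Group G] [Finite G]

theorem comm_of_direct {p : ℕ} [Fact p.Prime] {P : Sylow p G} {K : Subgroup G}
    (hP : (P : Subgroup G).Normal) (hK : K.Normal) (h1 : (P : Subgroup G) ⊓ K = ⊥)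
    (x y : G) (hx : x ∈ P) (hy : y ∈ K) : x * y = y * x := by
  have h2 : x * y * x⁻¹ * y⁻¹ ∈ (P : Subgroup G) ⊓ K := by
    refine ⟨?_, K.mul_mem (hK.conj_mem _ hy x) (K.inv_mem hy)⟩
    have h3 : x * y * x⁻¹ * y⁻¹ = x * (y * x⁻¹ * y⁻¹) := by group
    rw [h3]
    exact (P : Subgroup G).mul_mem hx (hP.conj_mem _ ((P : Subgroup G).inv_mem hx) y)
  rw [h1, mem_bot, mul_inv_eq_one, mul_inv_eq_iff_eq_mul] at h2
  exact h2

omit [Finite G] in
theorem mem_of_coprime {K : Subgroup G} (hK : K.Normal) {n : ℕ} (x : G) (hx : (orderOf x).Coprime n)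
    (hn : K.index ∣ n) : x ∈ K := by
  rw [← QuotientGroup.eq_one_iff]
  rw [← orderOf_eq_one_iff]
  have h1 : orderOf (x : G ⧸ K) ∣ orderOf x := orderOf_map_dvd (QuotientGroup.mk' K) x
  have h2 : orderOf (x : G ⧸ K) ∣ K.index := by
    rw [Subgroup.index_eq_card]; exact orderOf_dvd_natCard _
  exact Nat.eq_one_of_dvd_coprimes hx h1 (h2.trans hn)

theorem index_eq {p : ℕ} [Fact p.Prime] {P : Sylow p G} {K : Subgroup G}
    (hP : (P : Subgroup G).Normal) (hK : K.Normal) (h1 : (P : Subgroup G) ⊓ K = ⊥)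
    (h2 : (P : Subgroup G) ⊔ K = ⊤) : K.index = Nat.card P ∧ (P : Subgroup G).index = Nat.card K := by
  have h3 : IsComplement' (P : Subgroup G) K := by
    apply isComplement'_of_disjoint_and_mul_eq_univ
    · exact disjoint_iff.2 h1
    · rw [← Subgroup.normal_mul, h2]; rfl
  exact ⟨h3.index_eq_card, h3.symm.index_eq_card⟩

theorem direct_of_commute (p : ℕ) [hp : Fact p.Prime]
    (h : ∀ x y : G, (∃ a : ℕ, orderOf x = p ^ a) →
      (∃ q b : ℕ, q.Prime ∧ q ≠ p ∧ orderOf y = q ^ b) → x * y = y * x) :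
    ∃ (P : Sylow p G) (K : Subgroup G), (P : Subgroup G).Normal ∧ K.Normal ∧
      (P : Subgroup G) ⊓ K = ⊥ ∧ (P : Subgroup G) ⊔ K = ⊤ := by
  have hreg : ∀ x : G, (orderOf x).Coprime p → ¬ p ∣ (centralizer ({x} : Set G)).index := by
    intro x hx
    have P : Sylow p G := default
    apply ClassSize.not_dvd_of_centralizes x P
    intro y hy
    have h1 : x ∈ centralizer ({y} : Set G) := by
      apply Basic.mem_of_prime_pow_parts
      intro z hz q b hq hzb
      rw [mem_centralizer_singleton_iff]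
      obtain ⟨k, hk⟩ := IsPGroup.iff_orderOf.1 P.2 ⟨y, hy⟩
      have hy' : orderOf y = p ^ k := by rw [← hk, Subgroup.orderOf_mk]
      by_cases hqp : q = p
      · have h2 : orderOf z ∣ orderOf x := by
          obtain ⟨i, rfl⟩ := mem_zpowers_iff.1 hz
          exact orderOf_dvd_of_mem_zpowers hz
        have h3 : orderOf z = 1 := by
          apply Nat.eq_one_of_dvd_coprimes (hx.pow_right b) h2
          rw [hzb, hqp]
        rw [orderOf_eq_one_iff.1 h3, one_mul, mul_one]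
      · exact (h y z ⟨k, hy'⟩ ⟨q, b, hq, hqp, hzb⟩).symm
    exact (mem_centralizer_singleton_iff.1 h1).symm
  have P : Sylow p G := default
  obtain ⟨hPn, _, hnpc⟩ := Regular.regular_direct hreg P
  obtain ⟨N, hN, hNc⟩ := (H2.Basic.npc_iff_sylow P).1 hnpc
  exact ⟨P, N, hPn, hN, (hNc.symm).disjoint.eq_bot, hNc.symm.sup_eq_top⟩

theorem iff_commute {p : ℕ} [hp : Fact p.Prime] :
    (∃ (P : Sylow p G) (K : Subgroup G), (P : Subgroup G).Normal ∧ K.Normal ∧
      (P : Subgroup G) ⊓ K = ⊥ ∧ (P : Subgroup G) ⊔ K = ⊤) ↔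
    ∀ x y : G, (∃ a : ℕ, orderOf x = p ^ a) →
      (∃ q b : ℕ, q.Prime ∧ q ≠ p ∧ orderOf y = q ^ b) → x * y = y * x := by
  constructor
  · rintro ⟨P, K, hP, hK, h1, h2⟩ x y ⟨a, ha⟩ ⟨q, b, hq, hqp, hb⟩
    obtain ⟨i1, i2⟩ := index_eq hP hK h1 h2
    obtain ⟨n, hn⟩ := IsPGroup.iff_card.1 P.2
    have hKc : ¬ p ∣ Nat.card K := by
      rw [← i2]; exact P.not_dvd_index
    apply comm_of_direct hP hK h1
    · apply mem_of_coprime hP x (n := Nat.card K) _ i2.dvd
      rw [ha]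
      exact Nat.Coprime.pow_left a ((Nat.Prime.coprime_iff_not_dvd hp.out).2 hKc)
    · apply mem_of_coprime hK y (n := p ^ n) _ (i1.trans hn).dvd
      rw [hb]
      exact Nat.Coprime.pow _ _ ((Nat.coprime_primes hq hp.out).2 hqp)
  · exact direct_of_commute p

end Cfsg.Agent.H23.DirF
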