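import Mathlib
import Cfsg.Agent.H3_CharInd
import Cfsg.Agent.H3_CharInt

set_option autoImplicit false

/-! The Frobenius–Schur indicator of a character is an algebraic integer. -/

namespace Cfsg.Agent.H23.FSInd

open Cfsg Matrix Polynomial
open scoped Kronecker

theorem isIntegral_trace_of_cube {m : Type*} [Fintype m] [DecidableEq m] (B : Matrix m m ℂ)
    (h : B ^ 3 = B) : IsIntegral ℤ B.trace := by
  rw [Matrix.trace_eq_sum_roots_charpoly]
  apply IsIntegral.multiset_sum
  intro x hx
  have hroot : B.charpoly.IsRoot x := (Polynomial.mem_roots (B.charpoly_monic.ne_zero)).1 hx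
  have hspec := Matrix.mem_spectrum_of_isRoot_charpoly hroot
  rcases isEmpty_or_nonempty m with hm | hm
  · have : Subsingleton (Matrix m m ℂ) := inferInstance
    exfalso
    rw [spectrum.of_subsingleton] at hspec
    exact hspec
  have h1 := spectrum.subset_polynomial_aeval B (X ^ 3 - X : ℂ[X]) ⟨x, hspec, rfl⟩
  have h2 : (aeval B) (X ^ 3 - X : ℂ[X]) = 0 := by simp [h]
  rw [h2, spectrum.zero_eq] at h1
  have h3 : x ^ 3 - x = 0 := by simpa using h1
  refine ⟨X ^ 3 - X, ?_, ?_⟩
  · have : (X ^ 3 - X : ℤ[X]) = X ^ 3 - X ^ 1 := by simp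
    rw [this]
    exact Polynomial.monic_X_pow_sub (by simp)
  · simpa using h3

/-- The Frobenius–Schur indicator of a character is an algebraic integer. -/
theorem isIntegral_indicator {G : Type*} [Group G] [Fintype G] {χ : G → ℂ} (h : IsCharacter G χ) :
    IsIntegral ℤ ((Nat.card G : ℂ)⁻¹ * ∑ s : G, χ (s * s)) := by
  classical
  obtain ⟨n, ρ, rfl⟩ := h
  let R : G → Matrix (Fin n) (Fin n) ℂ := fun g => LinearMap.toMatrix' (ρ g)
  have hR : ∀ g h, R (g * h) = R g * R h := by
    intro g h
    simp only [R]
    rw [map_mul, LinearMap.toMatrix'_mul]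
  let K : G → Matrix (Fin n × Fin n) (Fin n × Fin n) ℂ := fun g => R g ⊗ₖ R g
  have hK : ∀ g h, K (g * h) = K g * K h := by
    intro g h
    simp only [K, hR]
    exact Matrix.mul_kronecker_mul _ _ _ _
  let sw : Fin n × Fin n ≃ Fin n × Fin n := Equiv.prodComm _ _
  have hKsw : ∀ g, (K g).submatrix sw sw = K g := by
    intro g
    ext ⟨i, j⟩ ⟨k, l⟩
    simp only [K, sw, Matrix.submatrix_apply, Equiv.prodComm_apply, Prod.swap_prod_mk, Matrix.kroneckerMap_apply]
    ring
  let E : Matrix (Fin n × Fin n) (Fin n × Fin n) ℂ := (Nat.card G : ℂ)⁻¹ • ∑ g, K g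
  have hG : (Nat.card G : ℂ) ≠ 0 := by
    rw [Nat.cast_ne_zero]; exact Nat.card_pos.ne'
  have hEsw : E.submatrix sw sw = E := by
    ext i j
    simp only [E, Matrix.submatrix_apply, Matrix.smul_apply, Matrix.sum_apply]
    congr 1
    refine Finset.sum_congr rfl fun g _ => ?_
    conv_rhs => rw [← hKsw g]
    rfl
  have hEE : E * E = E := by
    simp only [E]
    rw [smul_mul_smul_comm, Finset.sum_mul_sum]
    have h1 : ∀ g : G, ∑ h : G, K g * K h = ∑ h : G, K h := by
      intro g
      simp only [← hK]
      exact Fintype.sum_equiv (Equiv.mulLeft g) _ _ (fun h => rfl)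
    simp only [h1]
    rw [Finset.sum_const, Finset.card_univ, ← Nat.card_eq_fintype_card, ← Nat.cast_smul_eq_nsmul ℂ, smul_smul]
    congr 1
    field_simp
  let B := E.submatrix sw id
  have hB2 : B * B = E := by
    have h1 : B = E.submatrix id sw := by
      have : (E.submatrix sw sw).submatrix id sw = E.submatrix id sw := by rw [hEsw]
      rw [← this]
      ext i j
      simp only [B, Matrix.submatrix_apply, id_eq, sw, Equiv.prodComm_apply, Prod.swap_swap]
    have h2 : B * B = (E.submatrix id sw) * (E.submatrix sw id) := by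
      conv_lhs => lhs; rw [h1]
    rw [h2, Matrix.submatrix_mul_equiv, hEE, Matrix.submatrix_id_id]
  have hB3 : B ^ 3 = B := by
    rw [pow_succ, pow_two, hB2]
    have : E * B = B := by
      have h1 : B = E.submatrix id sw := by
        have : (E.submatrix sw sw).submatrix id sw = E.submatrix id sw := by rw [hEsw]
        rw [← this]
        ext i j
        simp only [B, Matrix.submatrix_apply, id_eq, sw, Equiv.prodComm_apply, Prod.swap_swap]
      have h2 : E * E.submatrix id sw = (E * E).submatrix id sw := by
        ext i j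
        simp [Matrix.mul_apply]
      rw [h1, h2, hEE]
    exact this
  have htr : B.trace = (Nat.card G : ℂ)⁻¹ * ∑ s : G, ρ.character (s * s) := by
    simp only [B, E, Matrix.trace, Matrix.diag_apply, Matrix.submatrix_apply, Matrix.smul_apply, Matrix.sum_apply,
      smul_eq_mul, id_eq]
    rw [← Finset.mul_sum, Finset.sum_comm]
    congr 1
    refine Finset.sum_congr rfl fun g _ => ?_
    rw [Fintype.sum_prod_type]
    have h1 : ρ.character (g * g) = (R (g * g)).trace := by
      simp only [R]
      rw [Representation.character, LinearMap.trace_eq_matrix_trace ℂ (Pi.basisFun ℂ (Fin n))]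
      rfl
    rw [h1, hR, Matrix.trace]
    refine Finset.sum_congr rfl fun i _ => ?_
    rw [Matrix.diag_apply, Matrix.mul_apply]
    refine Finset.sum_congr rfl fun j _ => ?_
    simp only [K, sw, Equiv.prodComm_apply, Prod.swap_prod_mk, Matrix.kroneckerMap_apply]
    ring
  rw [← htr]
  exact isIntegral_trace_of_cube B hB3

end Cfsg.Agent.H23.FSInd
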