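import Mathlib
import Cfsg.Agent.H2_Card
import Cfsg.Agent.H2_PGroup
import Cfsg.Agent.H24_Tools
import Cfsg.Agent.H23_PBasic
import Cfsg.Agent.H23_PQuat
import Cfsg.Agent.H23_MaxCl

/-! H23_IsoSub: p-groups in which subgroups of the same order are isomorphic. -/

set_option autoImplicit false

namespace Cfsg.Agent.H23.IsoSub
open Cfsg.Agent

open Subgroup
open scoped Pointwise commutatorElement

universe u
variable {P : Type u} [Group P] [Finite P] {p : ℕ} [hp : Fact p.Prime]

/-- an abelian `p`-group of exponent `p` and order at least `p ^ 2` has a subgroup of order `p ^ 2` -/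
theorem exists_rank_two (hP : IsPGroup p P) {A : Subgroup P} (hA : p ^ 2 ≤ Nat.card A) :
    ∃ B ≤ A, Nat.card B = p ^ 2 := by
  obtain ⟨k, hk⟩ := IsPGroup.iff_card.1 (hP.to_subgroup A)
  rw [hk] at hA
  have h1 := (Nat.pow_le_pow_iff_right hp.out.one_lt).1 hA
  obtain ⟨B, hB⟩ := Sylow.exists_subgroup_card_pow_prime (G := A) p (n := 2) (by rw [hk]; exact pow_dvd_pow p h1)
  exact ⟨B.map A.subtype, map_subtype_le _, by rw [card_map_of_injective A.subtype_injective, hB]⟩

omit [Finite P] in
theorem comm_sup {A B : Subgroup P} (hA : A ≤ centralizer (A : Set P)) (hB : B ≤ centralizer (B : Set P))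
    (hAB : A ≤ centralizer (B : Set P)) : A ⊔ B ≤ centralizer ((A ⊔ B : Subgroup P) : Set P) := by
  refine sup_le ?_ ?_
  · rw [le_centralizer_iff]
    exact sup_le hA (le_centralizer_iff.1 hAB)
  · rw [le_centralizer_iff]
    exact sup_le hAB hB

omit [Finite P] in
theorem zpowers_comm (x : P) : zpowers x ≤ centralizer ((zpowers x : Subgroup P) : Set P) := by
  rintro _ ⟨k, rfl⟩
  rw [mem_centralizer_iff]
  rintro _ ⟨m, rfl⟩
  exact ((Commute.refl x).zpow_zpow m k).eq

theorem quat_case (n : ℕ) (hn : 2 ≤ n) (h8 : ∀ H K : Subgroup (QuaternionGroup (2 ^ n)), Nat.card H = Nat.card K → IsCyclic H → IsCyclic K) :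
    False := by
  haveI : NeZero (2 ^ n) := ⟨by positivity⟩
  have hcard : Nat.card (QuaternionGroup (2 ^ n)) = 4 * 2 ^ n := by
    rw [Nat.card_eq_fintype_card, QuaternionGroup.card]
  obtain ⟨m, rfl⟩ := Nat.exists_eq_add_of_le hn
  have ho : orderOf (QuaternionGroup.a (n := 2 ^ (2 + m)) 1) = 2 * 2 ^ (2 + m) := QuaternionGroup.orderOf_a_one
  have ho2 : orderOf ((QuaternionGroup.a (n := 2 ^ (2 + m)) 1) ^ (2 ^ m)) = 8 := by
    rw [orderOf_pow, ho]
    have : 2 * 2 ^ (2 + m) = 2 ^ m * 8 := by rw [pow_add]; ring
    rw [this, Nat.gcd_eq_right (dvd_mul_right _ _), Nat.mul_div_cancel_left _ (pow_pos two_pos m)]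
  have hcyc : ∀ K : Subgroup (QuaternionGroup (2 ^ (2 + m))), Nat.card K = 8 → IsCyclic K := by
    intro K hK
    exact h8 (zpowers ((QuaternionGroup.a (n := 2 ^ (2 + m)) 1) ^ (2 ^ m))) K (by rw [Nat.card_zpowers, ho2, hK]) inferInstance
  have ht : orderOf (QuaternionGroup.xa (n := 2 ^ (2 + m)) 0) = 4 := QuaternionGroup.orderOf_xa 0
  obtain ⟨T, hT, hTle⟩ := Sylow.exists_subgroup_card_pow_succ (G := QuaternionGroup (2 ^ (2 + m))) (p := 2) (n := 2)
    (by rw [hcard]; exact ⟨2 * 2 ^ m, by rw [pow_add]; ring⟩) (H := zpowers (QuaternionGroup.xa 0))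
    (by rw [Nat.card_zpowers, ht]; norm_num)
  have hT8 : Nat.card T = 8 := by rw [hT]; norm_num
  obtain ⟨⟨s, hsT⟩, hs⟩ := (hcyc T hT8).exists_generator
  have hso : orderOf s = 8 := by
    have := orderOf_eq_card_of_forall_mem_zpowers hs
    rw [hT8, orderOf_mk] at this
    exact this
  obtain ⟨k, hk⟩ := hs ⟨QuaternionGroup.xa 0, hTle (mem_zpowers _)⟩
  have hk' : s ^ k = QuaternionGroup.xa 0 := congrArg Subtype.val hk
  rcases s with i | i
  · have hs' : ∀ k : ℤ, ∃ j, (QuaternionGroup.a (n := 2 ^ (2 + m)) i) ^ k = QuaternionGroup.a j := by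
      intro k
      let S : Subgroup (QuaternionGroup (2 ^ (2 + m))) :=
        { carrier := {x | ∃ j, x = QuaternionGroup.a j}
          one_mem' := ⟨0, rfl⟩
          mul_mem' := by
            rintro _ _ ⟨i, rfl⟩ ⟨j, rfl⟩
            exact ⟨i + j, rfl⟩
          inv_mem' := by
            rintro _ ⟨i, rfl⟩
            exact ⟨-i, rfl⟩ }
      exact S.zpow_mem (⟨i, rfl⟩ : QuaternionGroup.a i ∈ S) k
    obtain ⟨j, hj⟩ := hs' k
    rw [hj] at hk'
    cases hk'
  · rw [QuaternionGroup.orderOf_xa] at hso
    omega

/-- the main classification -/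
theorem main (hP : IsPGroup p P) (hI : ∀ H K : Subgroup P, Nat.card H = Nat.card K → Nonempty (H ≃* K)) :
    IsCyclic P ∨ ((∀ a b : P, a * b = b * a) ∧ ∀ a : P, a ^ p = 1) ∨ (p = 2 ∧ Nonempty (P ≃* QuaternionGroup 2)) ∨
      (p ≠ 2 ∧ (∃ a b : P, a * b ≠ b * a) ∧ Nat.card P = p ^ 3 ∧ ∀ a : P, a ^ p = 1) := by
  classical
  by_cases hex : ∃ x : P, orderOf x = p ^ 2
  · obtain ⟨x, hx⟩ := hex
    have hcyc : ∀ K : Subgroup P, Nat.card K = p ^ 2 → IsCyclic K := by
      intro K hK
      obtain ⟨e⟩ := hI (zpowers x) K (by rw [Nat.card_zpowers, hx, hK])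
      exact isCyclic_of_surjective e e.surjective
    rcases PQuat.cyclic_or_quaternion_of_abelian hP (fun A hA hAp => by
        by_cases hA2 : p ^ 2 ≤ Nat.card A
        · obtain ⟨B, hBA, hB⟩ := exists_rank_two hP hA2
          obtain ⟨⟨b, hb⟩, hgen⟩ := (hcyc B hB).exists_generator
          have h1 := orderOf_eq_card_of_forall_mem_zpowers hgen
          rw [orderOf_mk, hB] at h1
          have h2 : orderOf b ∣ p := orderOf_dvd_of_pow_eq_one (hAp b (hBA hb))
          rw [h1] at h2
          have h3 := Nat.le_of_dvd hp.out.pos h2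
          have h4 := hp.out.two_le
          nlinarith
        · obtain ⟨k, hk⟩ := IsPGroup.iff_card.1 (hP.to_subgroup A)
          rw [hk] at hA2
          have h1 : k ≤ 1 := by
            by_contra h
            exact hA2 (Nat.pow_le_pow_right hp.out.pos (by omega))
          interval_cases k
          · rw [pow_zero] at hk
            haveI : Subsingleton A := (Finite.card_le_one_iff_subsingleton).1 hk.le
            exact isCyclic_of_subsingleton
          · rw [pow_one] at hk
            exact isCyclic_of_prime_card hk) with h | ⟨h2, n, ⟨e⟩⟩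
    · exact Or.inl h
    · rcases Nat.lt_or_ge n 2 with hn | hn
      · interval_cases n
        · left
          haveI : IsCyclic (QuaternionGroup (2 ^ 0)) := QuaternionGroup.quaternionGroup_one_isCyclic
          exact isCyclic_of_surjective e.symm e.symm.surjective
        · right; right; left
          exact ⟨h2, ⟨e⟩⟩
      · exfalso
        apply quat_case n hn
        intro H K hHK hH
        obtain ⟨f⟩ := hI (H.map e.symm.toMonoidHom) (K.map e.symm.toMonoidHom) (by
          rw [card_map_of_injective e.symm.injective, card_map_of_injective e.symm.injective, hHK])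
        have e1 := H.equivMapOfInjective e.symm.toMonoidHom e.symm.injective
        have e2 := K.equivMapOfInjective e.symm.toMonoidHom e.symm.injective
        let g := (e1.trans f).trans e2.symm
        exact isCyclic_of_surjective g g.surjective
  · have hexp : ∀ a : P, a ^ p = 1 := by
      intro a
      obtain ⟨k, hk⟩ := IsPGroup.iff_orderOf.1 hP a
      have h1 : k ≤ 1 := by
        by_contra h
        apply hex
        refine ⟨a ^ (p ^ (k - 2)), ?_⟩
        rw [orderOf_pow, hk, Nat.gcd_eq_right (pow_dvd_pow p (by omega)), Nat.pow_div (by omega) hp.out.pos]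
        congr 1; omega
      rw [← orderOf_dvd_iff_pow_eq_one, hk]
      calc p ^ k ∣ p ^ 1 := pow_dvd_pow p h1
        _ = p := pow_one p
    by_cases hab : ∀ a b : P, a * b = b * a
    · exact Or.inr (Or.inl ⟨hab, hexp⟩)
    · right; right; right
      push Not at hab
      obtain ⟨a, b, hab'⟩ := hab
      have hp2 : p ≠ 2 := by
        rintro rfl
        apply hab'
        have h1 : ∀ c : P, c⁻¹ = c := fun c => inv_eq_of_mul_eq_one_left (by rw [← pow_two, hexp])
        calc a * b = (a * b)⁻¹ := (h1 _).symm
          _ = b⁻¹ * a⁻¹ := mul_inv_rev a b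
          _ = b * a := by rw [h1, h1]
      refine ⟨hp2, ⟨a, b, hab'⟩, ?_, hexp⟩
      -- a nonabelian subgroup of order p ^ 3
      have hqne : ∃ x : P, x ∉ center P ∧ ∀ g : P, g * x * g⁻¹ * x⁻¹ ∈ center P := by
        have hnt : Nontrivial (P ⧸ center P) := by
          rw [← Finite.one_lt_card_iff_nontrivial, ← index_eq_card]
          by_contra hle
          have h1 : (center P).index = 1 := le_antisymm (not_lt.1 hle) (Nat.pos_of_ne_zero index_ne_zero_of_finite)
          rw [index_eq_one] at h1
          exact hab' ((mem_center_iff.1 (h1 ▸ mem_top b)) a)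
        have h1 := (hP.to_quotient (center P)).bot_lt_center
        obtain ⟨z, hz, hz1⟩ := SetLike.exists_of_lt h1
        obtain ⟨x, rfl⟩ := QuotientGroup.mk'_surjective (center P) z
        refine ⟨x, fun hx => hz1 ?_, fun g => ?_⟩
        · rw [mem_bot]; exact (QuotientGroup.eq_one_iff x).2 hx
        · rw [← QuotientGroup.eq_one_iff]
          change QuotientGroup.mk' (center P) (g * x * g⁻¹ * x⁻¹) = 1
          rw [map_mul, map_mul, map_mul, map_inv, map_inv, mem_center_iff.1 hz]
          group
      obtain ⟨x, hxZ, hx⟩ := hqne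
      obtain ⟨y, hxy⟩ : ∃ y, y * x ≠ x * y := by
        by_contra h
        push Not at h
        exact hxZ (mem_center_iff.2 h)
      set c := y * x * y⁻¹ * x⁻¹ with hc
      have hcZ : c ∈ center P := hx y
      have hZcent : ∀ z ∈ center P, ∀ H : Subgroup P, zpowers z ≤ centralizer (H : Set P) := by
        intro z hz H
        rw [zpowers_le, mem_centralizer_iff]
        intro h _
        exact mem_center_iff.1 hz h
      have ho : ∀ z : P, Nat.card (zpowers z) ≤ p := by
        intro z
        rw [Nat.card_zpowers]
        exact Nat.le_of_dvd hp.out.pos (orderOf_dvd_of_pow_eq_one (hexp z))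
      have hsup : ∀ A B : Subgroup P, B ≤ normalizer (A : Set P) → Nat.card (B ⊔ A : Subgroup P) ≤ Nat.card B * Nat.card A := by
        intro A B h
        rw [← H2.Card.card_sup_mul_card_inf h]
        exact Nat.le_mul_of_pos_right _ Nat.card_pos
      set A := zpowers c ⊔ zpowers x with hA
      have hAcard : Nat.card A ≤ p * p := (hsup _ _ ((hZcent c hcZ _).trans (centralizer_le_normalizer _))).trans
        (Nat.mul_le_mul (ho c) (ho x))
      have hyA : zpowers y ≤ normalizer (A : Set P) := by
        rw [zpowers_le]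
        apply H24.Tools.mem_normalizer
        intro z hz
        obtain ⟨u, hu, v, hv, rfl⟩ := (H2.Card.mem_sup_iff ((hZcent c hcZ _).trans (centralizer_le_normalizer _))).1 hz
        obtain ⟨k, rfl⟩ := hv
        have huc : y * u * y⁻¹ = u := by
          rw [mul_inv_eq_iff_eq_mul]
          exact ((mem_centralizer_iff.1 (hZcent c hcZ ⊤ hu)) y (mem_top y))
        have h1 : y * (u * x ^ k) * y⁻¹ = (y * u * y⁻¹) * (y * x * y⁻¹) ^ k := by
          rw [conj_zpow]; group
        simp only
        rw [h1, huc]
        have h2 : y * x * y⁻¹ = c * x := by rw [hc]; group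
        rw [h2]
        have hcA : c ∈ A := mem_sup_left (mem_zpowers c)
        have hxA : x ∈ A := mem_sup_right (mem_zpowers x)
        exact mul_mem ((le_sup_left : zpowers c ≤ A) hu) (zpow_mem (mul_mem hcA hxA) k)
      have hHcard : Nat.card (zpowers y ⊔ A : Subgroup P) ≤ p * (p * p) :=
        (hsup _ _ hyA).trans (Nat.mul_le_mul (ho y) hAcard)
      set H := zpowers y ⊔ A with hH
      have hyH : y ∈ H := mem_sup_left (mem_zpowers y)
      have hxH : x ∈ H := mem_sup_right (mem_sup_right (mem_zpowers x))
      have hH3 : Nat.card H = p ^ 3 := by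
        obtain ⟨k, hk⟩ := IsPGroup.iff_card.1 (hP.to_subgroup H)
        rw [hk] at hHcard ⊢
        have h1 : k ≤ 3 := by
          have : p * (p * p) = p ^ 3 := by ring
          rw [this] at hHcard
          exact (Nat.pow_le_pow_iff_right hp.out.one_lt).1 hHcard
        have h2 : ¬ k ≤ 2 := by
          intro h
          apply hxy
          exact MaxCl.comm_of_card_le hP (by rw [hk]; exact Nat.pow_le_pow_right hp.out.pos h) y hyH x hxH
        congr 1; omega
      by_contra hne
      have h4 : p ^ 4 ≤ Nat.card P := by
        obtain ⟨k, hk⟩ := IsPGroup.iff_card.1 hP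
        have h1 : Nat.card H ≤ Nat.card P := Subgroup.card_le_card_group H
        rw [hH3, hk] at h1
        have h2 := (Nat.pow_le_pow_iff_right hp.out.one_lt).1 h1
        rw [hk] at hne ⊢
        apply Nat.pow_le_pow_right hp.out.pos
        rcases Nat.lt_or_ge k 4 with h3 | h3
        · exact absurd (by congr 1; omega) hne
        · exact h3
      -- an abelian subgroup of order at least p ^ 3
      obtain ⟨W, hW, hWcard⟩ : ∃ W : Subgroup P, W ≤ centralizer (W : Set P) ∧ p ^ 3 ≤ Nat.card W := by
        have hZc : center P ≤ centralizer ((center P : Subgroup P) : Set P) := by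
          intro z hz
          rw [mem_centralizer_iff]
          intro h _
          exact mem_center_iff.1 hz h
        have hZx : center P ≤ centralizer ((zpowers x : Subgroup P) : Set P) := by
          intro z hz
          rw [mem_centralizer_iff]
          intro h _
          exact mem_center_iff.1 hz h
        have hW := comm_sup hZc (zpowers_comm x) hZx
        set W := center P ⊔ zpowers x with hWdef
        by_cases h3 : p ^ 3 ≤ Nat.card W
        · exact ⟨W, hW, h3⟩
        · obtain ⟨j, hj⟩ := IsPGroup.iff_card.1 (hP.to_subgroup W)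
          obtain ⟨i, hi⟩ := IsPGroup.iff_card.1 (hP.to_subgroup (center P))
          have hlt : center P < W := lt_of_le_of_ne le_sup_left (fun h => hxZ (h ▸ mem_sup_right (mem_zpowers x)))
          have h5 := H2.Card.card_lt_of_lt hlt
          rw [hi, hj, Nat.pow_lt_pow_iff_right hp.out.one_lt] at h5
          rw [hj, Nat.pow_le_pow_iff_right hp.out.one_lt] at h3
          have hidx := PRank.index_centralizer_le (center P) x hx
          have h6 := (centralizer ({x} : Set P)).index_mul_card
          have h7 : p ^ 3 ≤ Nat.card (centralizer ({x} : Set P)) := by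
            by_contra hlt3
            have h8 : Nat.card P < p ^ 1 * p ^ 3 := by
              rw [← h6]
              have h9 : (centralizer ({x} : Set P)).index ≤ p ^ 1 := by
                rw [hi] at hidx
                exact hidx.trans (Nat.pow_le_pow_right hp.out.pos (by omega))
              calc (centralizer ({x} : Set P)).index * Nat.card (centralizer ({x} : Set P))
                  ≤ p ^ 1 * Nat.card (centralizer ({x} : Set P)) := Nat.mul_le_mul_right _ h9
                _ < p ^ 1 * p ^ 3 := Nat.mul_lt_mul_of_pos_left (not_le.1 hlt3) (pow_pos hp.out.pos 1)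
            have h10 : p ^ 1 * p ^ 3 = p ^ 4 := by ring
            omega
          have hWC : W ≤ centralizer ({x} : Set P) := by
            refine hW.trans (centralizer_le ?_)
            simp only [Set.singleton_subset_iff, SetLike.mem_coe]
            exact mem_sup_right (mem_zpowers x)
          have hltC : W < centralizer ({x} : Set P) := by
            refine lt_of_le_of_ne hWC (fun h => ?_)
            rw [← h, hj, Nat.pow_le_pow_iff_right hp.out.one_lt] at h7
            omega
          obtain ⟨d, hdC, hdW⟩ := SetLike.exists_of_lt hltC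
          have hWd : W ≤ centralizer ((zpowers d : Subgroup P) : Set P) := by
            rw [le_centralizer_iff, zpowers_le]
            rw [mem_centralizer_iff]
            intro w hw
            obtain ⟨u, hu, v, ⟨k, rfl⟩, rfl⟩ := (H2.Card.mem_sup_iff (hZx.trans (centralizer_le_normalizer _))).1 hw
            have h11 := mem_center_iff.1 hu d
            have h12 : Commute x d := (mem_centralizer_singleton_iff.1 hdC).symm
            have h13 : x ^ k * d = d * x ^ k := (h12.zpow_left k).eq
            simp only
            rw [mul_assoc, h13, ← mul_assoc, ← h11, mul_assoc]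
          refine ⟨W ⊔ zpowers d, comm_sup hW (zpowers_comm d) hWd, ?_⟩
          have hlt2 : W < W ⊔ zpowers d := lt_of_le_of_ne le_sup_left (fun h => hdW (by
            rw [h]; exact mem_sup_right (mem_zpowers d)))
          obtain ⟨l, hl⟩ := IsPGroup.iff_card.1 (hP.to_subgroup (W ⊔ zpowers d))
          have h14 := H2.Card.card_lt_of_lt hlt2
          rw [hj, hl, Nat.pow_lt_pow_iff_right hp.out.one_lt] at h14
          rw [hl]
          have h15 : 1 ≤ i := by
            haveI : Nontrivial P := ⟨⟨x, 1, fun h => hxZ (h ▸ one_mem _)⟩⟩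
            have h16 := H2.Card.card_lt_of_lt hP.bot_lt_center
            rw [Subgroup.card_bot, hi] at h16
            rcases Nat.eq_zero_or_pos i with rfl | h17
            · simp at h16
            · exact h17
          exact Nat.pow_le_pow_right hp.out.pos (by omega)
      obtain ⟨k, hk⟩ := IsPGroup.iff_card.1 (hP.to_subgroup W)
      rw [hk] at hWcard
      have h5 := (Nat.pow_le_pow_iff_right hp.out.one_lt).1 hWcard
      obtain ⟨B, hB⟩ := Sylow.exists_subgroup_card_pow_prime (G := W) p (n := 3) (by rw [hk]; exact pow_dvd_pow p h5)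
      obtain ⟨e⟩ := hI (B.map W.subtype) H (by rw [card_map_of_injective W.subtype_injective, hB, hH3])
      apply hxy
      have h6 : ∀ u v : B.map W.subtype, u * v = v * u := by
        rintro ⟨_, u, hu, rfl⟩ ⟨_, v, hv, rfl⟩
        apply Subtype.ext
        exact (mem_centralizer_iff.1 (hW u.2) v v.2).symm
      have h7 : (⟨y, hyH⟩ : H) * ⟨x, hxH⟩ = ⟨x, hxH⟩ * ⟨y, hyH⟩ := by
        apply e.symm.injective
        rw [map_mul, map_mul, h6]
      exact congrArg Subtype.val h7

end Cfsg.Agent.H23.IsoSub
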