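import Cfsg.Agent.H23_Kula3

set_option autoImplicit false
set_option linter.style.haveILetI false

/-! H23_Kula4: subgroups of order `p ^ a` of an arbitrary group modulo `p ^ 2`. -/

namespace Cfsg.Agent.H23.Kula

open Subgroup Finset
open Cfsg.Agent.H2.PGroup
open scoped Pointwise

universe u

section

variable {G : Type u} [Group G] [Finite G] {p : ℕ} [hp : Fact p.Prime]

omit [Finite G] in
theorem conj_eq_iff (r : G) (Q : Subgroup G) : MulAut.conj r • Q = Q ↔ r ∈ normalizer (Q : Set G) := by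
  constructor
  · intro h
    rw [mem_normalizer_iff]
    intro x
    have h1 : MulAut.conj r • x ∈ MulAut.conj r • Q ↔ x ∈ Q := smul_mem_pointwise_smul_iff
    rw [h] at h1
    exact h1.symm
  · intro h
    ext y
    rw [mem_pointwise_smul_iff_inv_smul_mem]
    have h1 := (mem_normalizer_iff.mp (inv_mem h)) y
    have h2 : (MulAut.conj r)⁻¹ • y = r⁻¹ * y * r⁻¹⁻¹ := by
      rw [← map_inv]; rfl
    rw [h2]
    exact h1.symm

/-- conjugation action on a stable finset of subgroups -/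
@[reducible] def act (R : Subgroup G) (X : Finset (Subgroup G))
    (hX : ∀ r ∈ R, ∀ Q ∈ X, MulAut.conj r • Q ∈ X) : MulAction R X where
  smul r Q := ⟨MulAut.conj (r : G) • Q.1, hX r r.2 Q.1 Q.2⟩
  one_smul Q := Subtype.ext (by
    show MulAut.conj ((1 : R) : G) • Q.1 = Q.1
    rw [OneMemClass.coe_one, map_one, one_smul])
  mul_smul a b Q := Subtype.ext (by
    show MulAut.conj ((a * b : R) : G) • Q.1 = MulAut.conj (a : G) • (MulAut.conj (b : G) • Q.1)
    rw [← mul_smul, ← map_mul]; rfl)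

open Classical in
theorem fix_mod (R : Subgroup G) (hR : IsPGroup p R) (X : Finset (Subgroup G))
    (hX : ∀ r ∈ R, ∀ Q ∈ X, MulAut.conj r • Q ∈ X) :
    X.card ≡ (X.filter (fun Q : Subgroup G => R ≤ normalizer (Q : Set G))).card [MOD p] := by
  letI := act R X hX
  have h1 := hR.card_modEq_card_fixedPoints (α := X)
  have h2 : Nat.card X = X.card := by simp
  have h3 : Nat.card (MulAction.fixedPoints R X) =
      (X.filter (fun Q : Subgroup G => R ≤ normalizer (Q : Set G))).card := by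
    have h4 : (X.filter (fun Q : Subgroup G => R ≤ normalizer (Q : Set G))).card =
        Nat.card {Q : Subgroup G // Q ∈ X.filter (fun Q : Subgroup G => R ≤ normalizer (Q : Set G))} := by
      rw [Nat.card_eq_fintype_card, Fintype.card_coe]
    rw [h4]
    refine Nat.card_congr (Equiv.ofBijective (fun Q : MulAction.fixedPoints R X =>
      (⟨Q.1.1, ?_⟩ : {Q : Subgroup G // Q ∈ X.filter (fun Q : Subgroup G => R ≤ normalizer (Q : Set G))})) ⟨?_, ?_⟩)
    · rw [Finset.mem_filter]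
      refine ⟨Q.1.2, fun r hr => ?_⟩
      rw [← conj_eq_iff]
      exact congrArg Subtype.val (Q.2 ⟨r, hr⟩)
    · intro Q Q' h
      apply Subtype.ext
      apply Subtype.ext
      exact congrArg (fun z => z.1) h
    · rintro ⟨Q, hQ⟩
      rw [Finset.mem_filter] at hQ
      refine ⟨⟨⟨Q, hQ.1⟩, fun r => Subtype.ext ?_⟩, rfl⟩
      exact (conj_eq_iff _ _).mpr (hQ.2 r.2)
  rw [h2, h3] at h1
  exact h1

theorem dvd_orbits (R : Subgroup G) (X : Finset (Subgroup G))
    (hX : ∀ r ∈ R, ∀ Q ∈ X, MulAut.conj r • Q ∈ X) (d : ℕ)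
    (hd : ∀ Q ∈ X, d ∣ (normalizer (Q : Set G)).relIndex R) : d ∣ X.card := by
  classical
  letI := act R X hX
  haveI : Fintype (MulAction.orbitRel.Quotient R X) := Fintype.ofFinite _
  have h2 : Nat.card X = X.card := by simp
  rw [← h2, Nat.card_congr (MulAction.selfEquivSigmaOrbits R X), Nat.card_sigma]
  apply Finset.dvd_sum
  intro ω _
  have h3 : Nat.card (MulAction.orbit R ω.out) = (normalizer ((ω.out : X).1 : Set G)).relIndex R := by
    rw [Nat.card_coe_set_eq, ← MulAction.index_stabilizer, relIndex]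
    congr 1
    ext r
    rw [MulAction.mem_stabilizer_iff, mem_subgroupOf, ← conj_eq_iff]
    exact ⟨fun h => congrArg Subtype.val h, fun h => Subtype.ext h⟩
  rw [h3]
  exact hd _ (ω.out : X).2

/-- weighted version without fixed points -/
theorem sum_dvd (R : Subgroup G) (hR : IsPGroup p R) (X : Finset (Subgroup G))
    (hX : ∀ r ∈ R, ∀ Q ∈ X, MulAut.conj r • Q ∈ X)
    (hfix : ∀ Q ∈ X, ¬ R ≤ normalizer (Q : Set G)) (f : Subgroup G → ℕ)
    (hf : ∀ r ∈ R, ∀ Q ∈ X, f (MulAut.conj r • Q) = f Q) (hpf : ∀ Q ∈ X, p ∣ f Q) :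
    p ^ 2 ∣ ∑ Q ∈ X, f Q := by
  classical
  have h1 : ∑ Q ∈ X, f Q = ∑ v ∈ X.image f, (X.filter (fun Q => f Q = v)).card * v := by
    have := Finset.sum_comp (s := X) (fun v : ℕ => v) f
    simp only [smul_eq_mul] at this
    exact this
  rw [h1]
  apply Finset.dvd_sum
  intro v hv
  obtain ⟨Q0, hQ0, rfl⟩ := Finset.mem_image.mp hv
  rw [pow_two]
  apply Nat.mul_dvd_mul _ (hpf Q0 hQ0)
  have h2 := fix_mod R hR (X.filter (fun Q => f Q = f Q0)) (by
    intro r hr Q hQ
    rw [Finset.mem_filter] at hQ ⊢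
    exact ⟨hX r hr Q hQ.1, by rw [hf r hr Q hQ.1, hQ.2]⟩)
  have h3 : Finset.filter (fun Q : Subgroup G => R ≤ normalizer (Q : Set G)) (X.filter (fun Q => f Q = f Q0)) = ∅ := by
    rw [Finset.eq_empty_iff_forall_notMem]
    intro Q hQ
    rw [Finset.mem_filter, Finset.mem_filter] at hQ
    exact hfix Q hQ.1.1 hQ.2
  rw [h3, Finset.card_empty] at h2
  exact (Nat.modEq_zero_iff_dvd).mp h2

theorem card_conj (r : G) (Q : Subgroup G) : Nat.card (MulAut.conj r • Q : Subgroup G) = Nat.card Q :=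
  Nat.card_congr (Subgroup.equivSMul (MulAut.conj r) Q).toEquiv.symm

/-- subgroups of order `p ^ a` inside `R` -/
theorem Sk_mod {a : ℕ} (R : Subgroup G) (h : p ^ a ∣ Nat.card R) : (Sk p a R).card ≡ 1 [MOD p] := by
  rw [card_Sk]
  exact Wielandt.card_modEq_one p a hp.out h

theorem Sk_closed {a : ℕ} (R : Subgroup G) : ∀ r ∈ R, ∀ Q ∈ Sk p a R, MulAut.conj r • Q ∈ Sk p a R := by
  intro r hr Q hQ
  rw [mem_Sk] at hQ ⊢
  refine ⟨by rw [card_conj, hQ.1], ?_⟩
  intro y hy
  rw [mem_pointwise_smul_iff_inv_smul_mem] at hy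
  have h2 : (MulAut.conj r)⁻¹ • y = r⁻¹ * y * r⁻¹⁻¹ := by
    rw [← map_inv]; rfl
  rw [h2] at hy
  have h3 := hQ.2 hy
  have h4 : y = r * (r⁻¹ * y * r⁻¹⁻¹) * r⁻¹ := by group
  rw [h4]
  exact R.mul_mem (R.mul_mem hr h3) (R.inv_mem hr)

open Classical in
theorem w_dvd {a : ℕ} (P1 R : Subgroup G) (hP1 : IsPGroup p P1) (h1R : P1 ≤ R)
    (h1 : p ^ a ∣ Nat.card P1) :
    p ∣ ((Sk p a R).filter (fun Q : Subgroup G => P1 ≤ normalizer (Q : Set G) ∧ ¬ Q ≤ P1)).card := by
  have hR : p ^ a ∣ Nat.card R := h1.trans (card_dvd_of_le h1R)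
  have e1 := (Sk_mod R hR).symm.trans (fix_mod P1 hP1 (Sk p a R) (fun r hr => Sk_closed R r (h1R hr)))
  have e2 := (Sk_mod P1 h1).symm.trans (fix_mod P1 hP1 (Sk p a P1) (fun r hr => Sk_closed P1 r hr))
  have e3 : ((Sk p a R).filter (fun Q : Subgroup G => P1 ≤ normalizer (Q : Set G))).card =
      ((Sk p a R).filter (fun Q : Subgroup G => P1 ≤ normalizer (Q : Set G) ∧ ¬ Q ≤ P1)).card +
      ((Sk p a P1).filter (fun Q : Subgroup G => P1 ≤ normalizer (Q : Set G))).card := by
    rw [← Finset.card_filter_add_card_filter_not (s := (Sk p a R).filter (fun Q : Subgroup G => P1 ≤ normalizer (Q : Set G)))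
      (fun Q : Subgroup G => ¬ Q ≤ P1)]
    congr 1
    · rw [Finset.filter_filter]
    · congr 1
      ext Q
      simp only [Finset.mem_filter, mem_Sk, not_not]
      constructor
      · rintro ⟨⟨⟨h1, h2⟩, h3⟩, h4⟩
        exact ⟨⟨h1, h4⟩, h3⟩
      · rintro ⟨⟨h1, h4⟩, h3⟩
        exact ⟨⟨⟨h1, h4.trans h1R⟩, h3⟩, h4⟩
  rw [e3] at e1
  have e4 := e1.symm.trans e2
  have e5 : ((Sk p a R).filter (fun Q : Subgroup G => P1 ≤ normalizer (Q : Set G) ∧ ¬ Q ≤ P1)).card +
      ((Sk p a P1).filter (fun Q : Subgroup G => P1 ≤ normalizer (Q : Set G))).card ≡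
      0 + ((Sk p a P1).filter (fun Q : Subgroup G => P1 ≤ normalizer (Q : Set G))).card [MOD p] := by
    rw [zero_add]; exact e4
  exact (Nat.modEq_zero_iff_dvd).mp (Nat.ModEq.add_right_cancel' _ e5)

end

section main

variable {G : Type u} [Group G] [Finite G] {p : ℕ} [hp : Fact p.Prime]

omit [Finite G] in
theorem conj_le_normalizer {P1 Q : Subgroup G} (h : P1 ≤ normalizer (Q : Set G)) (r : G) :
    MulAut.conj r • P1 ≤ normalizer ((MulAut.conj r • Q : Subgroup G) : Set G) := by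
  rintro _ ⟨y, hy, rfl⟩
  have h1 := (conj_eq_iff y Q).mpr (h hy)
  rw [← conj_eq_iff]
  show MulAut.conj (r * y * r⁻¹) • (MulAut.conj r • Q) = MulAut.conj r • Q
  rw [← mul_smul, ← map_mul, show r * y * r⁻¹ * r = r * y by group, map_mul, mul_smul, h1]

omit [Finite G] in
theorem conj_le_iff {P Q : Subgroup G} {r : G} (hr : r ∈ P) : MulAut.conj r • Q ≤ P ↔ Q ≤ P := by
  have h1 : MulAut.conj r • P = P := (conj_eq_iff r P).mpr (le_normalizer hr)
  constructor
  · intro h x hx
    have h2 : MulAut.conj r • x ∈ MulAut.conj r • P := by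
      rw [h1]; exact h (smul_mem_pointwise_smul x _ Q hx)
    exact smul_mem_pointwise_smul_iff.mp h2
  · intro h
    rw [← h1]
    exact pointwise_smul_le_pointwise_smul_iff.mpr h

theorem le_of_normalizes (P : Sylow p G) {Q : Subgroup G} (hQ : IsPGroup p Q)
    (h : (P : Subgroup G) ≤ normalizer (Q : Set G)) : Q ≤ P := by
  have h1 : IsPGroup p ((P : Subgroup G) ⊔ Q : Subgroup G) := P.isPGroup'.to_sup_of_normal_right' hQ h
  have h2 := P.is_maximal' h1 le_sup_left
  rw [← h2]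
  exact le_sup_right

open Classical in
theorem sylow_mod (P : Sylow p G) {m a : ℕ} (hm : Nat.card (P : Subgroup G) = p ^ m) (ha : a + 1 ≤ m) :
    (Sk p a (⊤ : Subgroup G)).card ≡ (Sk p a (P : Subgroup G)).card [MOD p ^ 2] := by
  haveI := Fintype.ofFinite (Subgroup G)
  have hpc : ∀ Q : Subgroup G, Nat.card Q = p ^ a → IsPGroup p Q := fun Q hQ => IsPGroup.of_card hQ
  have hnorm : ∀ P1 : Subgroup G, P1 ≤ P → P1.relIndex P = p → ∀ r ∈ P, MulAut.conj r • P1 = P1 := by
    intro P1 h1 h2 r hr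
    have h3 : (P1.subgroupOf P).Normal := normal_of_index_p P.isPGroup' h2
    rw [conj_eq_iff]
    exact (Subgroup.normal_subgroupOf_iff_le_normalizer h1).mp h3 hr
  have hcard1 : ∀ P1 : Subgroup G, P1 ≤ P → P1.relIndex P = p → Nat.card P1 = p ^ (m - 1) := by
    intro P1 h1 h2
    have h3 := (P1.subgroupOf P).card_mul_index
    have h4 : (P1.subgroupOf (P : Subgroup G)).index = p := h2
    have h5 : Nat.card (P1.subgroupOf (P : Subgroup G)) = Nat.card P1 :=
      Nat.card_congr (Subgroup.subgroupOfEquivOfLe h1).toEquiv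
    rw [h4, h5, hm] at h3
    apply Nat.eq_of_mul_eq_mul_right hp.out.pos
    rw [h3, ← pow_succ]; congr 1; omega
  set X' : Finset (Subgroup G) := (Sk p a (⊤ : Subgroup G)).filter (fun Q : Subgroup G => ¬ Q ≤ P) with hX'
  have memX' : ∀ Q, Q ∈ X' ↔ Nat.card Q = p ^ a ∧ ¬ Q ≤ P := by
    intro Q
    rw [hX', Finset.mem_filter, mem_Sk]
    simp
  let QQ : Subgroup G → Finset (Subgroup G) := fun P1 => X'.filter (fun Q : Subgroup G => P1 ≤ normalizer (Q : Set G))
  have memQQ : ∀ P1 Q, Q ∈ QQ P1 ↔ (Nat.card Q = p ^ a ∧ ¬ Q ≤ P) ∧ P1 ≤ normalizer (Q : Set G) := by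
    intro P1 Q
    show Q ∈ X'.filter _ ↔ _
    rw [Finset.mem_filter, memX']
  let MM : Finset (Subgroup G) := Finset.univ.filter (fun P1 : Subgroup G => P1 ≤ P ∧ P1.relIndex P = p)
  have memMM : ∀ P1, P1 ∈ MM ↔ P1 ≤ P ∧ P1.relIndex P = p := by
    intro P1
    show P1 ∈ Finset.univ.filter _ ↔ _
    rw [Finset.mem_filter]; simp
  -- closure
  have hX'c : ∀ r ∈ (P : Subgroup G), ∀ Q ∈ X', MulAut.conj r • Q ∈ X' := by
    intro r hr Q hQ
    rw [memX'] at hQ ⊢
    exact ⟨by rw [card_conj, hQ.1], fun h => hQ.2 ((conj_le_iff hr).mp h)⟩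
  have hQQc : ∀ P1 ∈ MM, ∀ r ∈ (P : Subgroup G), ∀ Q ∈ QQ P1, MulAut.conj r • Q ∈ QQ P1 := by
    intro P1 hP1 r hr Q hQ
    rw [memMM] at hP1
    rw [memQQ] at hQ ⊢
    refine ⟨(memX' _).mp (hX'c r hr Q ((memX' Q).mpr hQ.1)), ?_⟩
    have h1 := conj_le_normalizer hQ.2 r
    rwa [hnorm P1 hP1.1 hP1.2 r hr] at h1
  -- the part with small orbits
  have hsmall : ∀ P1 ∈ MM, p ^ 2 ∣ (QQ P1).card := by
    intro P1 hP1
    rw [memMM] at hP1
    have hP1p : IsPGroup p P1 := P.isPGroup'.to_le hP1.1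
    have hc1 := hcard1 P1 hP1.1 hP1.2
    let RR : Finset (Subgroup G) := Finset.univ.filter (fun R : Subgroup G => P1 ≤ R ∧ Nat.card R = p ^ m ∧ R ≠ P)
    have memRR : ∀ R, R ∈ RR ↔ P1 ≤ R ∧ Nat.card R = p ^ m ∧ R ≠ P := by
      intro R
      show R ∈ Finset.univ.filter _ ↔ _
      rw [Finset.mem_filter]; simp
    let w : Subgroup G → Finset (Subgroup G) := fun R =>
      (Sk p a R).filter (fun Q : Subgroup G => P1 ≤ normalizer (Q : Set G) ∧ ¬ Q ≤ P1)
    have memw : ∀ R Q, Q ∈ w R ↔ (Nat.card Q = p ^ a ∧ Q ≤ R) ∧ P1 ≤ normalizer (Q : Set G) ∧ ¬ Q ≤ P1 := by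
      intro R Q
      show Q ∈ (Sk p a R).filter _ ↔ _
      rw [Finset.mem_filter, mem_Sk]
    have hsup : ∀ Q : Subgroup G, Nat.card Q = p ^ a → P1 ≤ normalizer (Q : Set G) → ¬ Q ≤ P1 →
        Nat.card (P1 ⊔ Q : Subgroup G) = p ^ m := by
      intro Q hQ hN hle
      have h1 : IsPGroup p (P1 ⊔ Q : Subgroup G) := hP1p.to_sup_of_normal_right' (hpc Q hQ) hN
      obtain ⟨S, hS⟩ := h1.exists_le_sylow
      have h2 : Nat.card (S : Subgroup G) = p ^ m := by rw [← hm]; exact Nat.card_congr (Sylow.equiv S P).toEquiv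
      obtain ⟨j, hj⟩ := IsPGroup.iff_card.mp h1
      have h3 : p ^ j ∣ p ^ m := by rw [← hj, ← h2]; exact card_dvd_of_le hS
      have h4 : j ≤ m := (Nat.pow_dvd_pow_iff_le_right hp.out.one_lt).mp h3
      have h5 : m - 1 < j := by
        by_contra hcon
        have h6 : Nat.card (P1 ⊔ Q : Subgroup G) ≤ Nat.card P1 := by
          rw [hj, hc1]; exact Nat.pow_le_pow_right hp.out.pos (by omega)
        have h7 : P1 = P1 ⊔ Q := Subgroup.eq_of_le_of_card_ge le_sup_left h6
        exact hle (by rw [h7]; exact le_sup_right)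
      rw [hj]; congr 1; omega
    have hsupR : ∀ R Q : Subgroup G, P1 ≤ R → Nat.card R = p ^ m → Q ∈ w R → P1 ⊔ Q = R := by
      intro R Q h1 h2 hQ
      rw [memw] at hQ
      exact Subgroup.eq_of_le_of_card_ge (sup_le h1 hQ.1.2) (by rw [h2, hsup Q hQ.1.1 hQ.2.1 hQ.2.2])
    have hunion : QQ P1 = RR.biUnion w := by
      ext Q
      rw [memQQ, Finset.mem_biUnion]
      constructor
      · rintro ⟨⟨h1, h2⟩, h3⟩
        have h4 : ¬ Q ≤ P1 := fun h => h2 (h.trans hP1.1)
        refine ⟨P1 ⊔ Q, ?_, ?_⟩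
        · rw [memRR]
          refine ⟨le_sup_left, hsup Q h1 h3 h4, fun h => h2 ?_⟩
          rw [← h]; exact le_sup_right
        · rw [memw]
          exact ⟨⟨h1, le_sup_right⟩, h3, h4⟩
      · rintro ⟨R, hR, hQ⟩
        rw [memRR] at hR
        have h5 := hsupR R Q hR.1 hR.2.1 hQ
        rw [memw] at hQ
        refine ⟨⟨hQ.1.1, fun h => hR.2.2 ?_⟩, hQ.2.1⟩
        have h6 : R ≤ P := by rw [← h5]; exact sup_le hP1.1 h
        exact Subgroup.eq_of_le_of_card_ge h6 (by rw [hR.2.1, hm])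
    have hdisj : Set.PairwiseDisjoint (RR : Set (Subgroup G)) w := by
      intro R hR R' hR' hne
      rw [Function.onFun, Finset.disjoint_left]
      intro Q hQ hQ'
      rw [Finset.mem_coe, memRR] at hR hR'
      apply hne
      rw [← hsupR R Q hR.1 hR.2.1 hQ, ← hsupR R' Q hR'.1 hR'.2.1 hQ']
    rw [hunion, Finset.card_biUnion (fun R hR R' hR' hne => hdisj hR hR' hne)]
    apply sum_dvd (P : Subgroup G) P.isPGroup' RR
    · intro r hr R hR
      rw [memRR] at hR ⊢
      refine ⟨?_, by rw [card_conj, hR.2.1], fun h => hR.2.2 ?_⟩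
      · rw [← hnorm P1 hP1.1 hP1.2 r hr]
        exact pointwise_smul_le_pointwise_smul_iff.mpr hR.1
      · have h1 : MulAut.conj r • (P : Subgroup G) = P := (conj_eq_iff r _).mpr (le_normalizer hr)
        rw [← h1] at h
        exact MulAction.injective (MulAut.conj r) h
    · intro R hR hN
      rw [memRR] at hR
      have h1 := le_of_normalizes P (IsPGroup.of_card hR.2.1) hN
      exact hR.2.2 (Subgroup.eq_of_le_of_card_ge h1 (by rw [hR.2.1, hm]))
    · intro r hr R _
      symm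
      refine Finset.card_bij (fun Q _ => MulAut.conj r • Q) ?_ ?_ ?_
      · intro Q hQ
        rw [memw] at hQ ⊢
        refine ⟨⟨by rw [card_conj, hQ.1.1], pointwise_smul_le_pointwise_smul_iff.mpr hQ.1.2⟩, ?_, ?_⟩
        · have h1 := conj_le_normalizer hQ.2.1 r
          rwa [hnorm P1 hP1.1 hP1.2 r hr] at h1
        · intro h
          apply hQ.2.2
          rw [← hnorm P1 hP1.1 hP1.2 r hr] at h
          exact pointwise_smul_le_pointwise_smul_iff.mp h
      · intro Q _ Q' _ h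
        exact MulAction.injective (MulAut.conj r) h
      · intro Q hQ
        rw [memw] at hQ
        have hri : r⁻¹ ∈ P := P.inv_mem hr
        refine ⟨MulAut.conj r⁻¹ • Q, ?_, ?_⟩
        · rw [memw]
          have e1 : MulAut.conj r⁻¹ • (MulAut.conj r • R) = R := by
            rw [← mul_smul, ← map_mul, inv_mul_cancel, map_one, one_smul]
          refine ⟨⟨by rw [card_conj, hQ.1.1], ?_⟩, ?_, ?_⟩
          · rw [← e1]
            exact pointwise_smul_le_pointwise_smul_iff.mpr hQ.1.2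
          · have h1 := conj_le_normalizer hQ.2.1 r⁻¹
            rwa [hnorm P1 hP1.1 hP1.2 r⁻¹ hri] at h1
          · intro h
            apply hQ.2.2
            rw [← hnorm P1 hP1.1 hP1.2 r⁻¹ hri] at h
            exact pointwise_smul_le_pointwise_smul_iff.mp h
        · show MulAut.conj r • (MulAut.conj r⁻¹ • Q) = Q
          rw [← mul_smul, ← map_mul, mul_inv_cancel, map_one, one_smul]
    · intro R hR
      rw [memRR] at hR
      apply w_dvd P1 R hP1p hR.1
      rw [hc1]; exact pow_dvd_pow p (by omega)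
  -- the union
  let X1 : Finset (Subgroup G) := MM.biUnion QQ
  have hX1 : p ^ 2 ∣ X1.card := by
    show p ^ 2 ∣ (MM.biUnion QQ).card
    rw [Finset.card_biUnion]
    · exact Finset.dvd_sum hsmall
    · intro P1 h1 P1' h1' hne
      rw [Function.onFun, Finset.disjoint_left]
      intro Q hQ hQ'
      rw [Finset.mem_coe, memMM] at h1 h1'
      rw [memQQ] at hQ hQ'
      apply hQ.1.2
      apply le_of_normalizes P (hpc Q hQ.1.1)
      have h2 : P1 ⊔ P1' = P := by
        have h3 : (P1.subgroupOf P) ⊔ (P1'.subgroupOf P) = ⊤ := by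
          have hc := isCoatom_of_index (P := P) (p := p) (M := P1.subgroupOf P) h1.2
          apply hc.2
          refine lt_of_le_of_ne le_sup_left ?_
          intro h
          have h4 : P1'.subgroupOf P ≤ P1.subgroupOf P := by rw [h]; exact le_sup_right
          have h5 : P1' ≤ P1 := by
            intro x hx
            exact h4 (x := ⟨x, h1'.1 hx⟩) hx
          apply hne
          exact (Subgroup.eq_of_le_of_card_ge h5 (by rw [hcard1 P1 h1.1 h1.2, hcard1 P1' h1'.1 h1'.2])).symm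
        apply le_antisymm (sup_le h1.1 h1'.1)
        intro x hx
        have h4 : (⟨x, hx⟩ : P) ∈ (P1.subgroupOf P) ⊔ (P1'.subgroupOf P) := by rw [h3]; trivial
        rw [← Subgroup.subgroupOf_sup h1.1 h1'.1] at h4
        exact h4
      rw [← h2]
      exact sup_le hQ.2 hQ'.2
  have hX1s : X1 ⊆ X' := by
    intro Q hQ
    obtain ⟨P1, _, hQ⟩ := Finset.mem_biUnion.mp hQ
    exact (Finset.mem_filter.mp hQ).1
  have hX2 : p ^ 2 ∣ (X' \ X1).card := by
    apply dvd_orbits (P : Subgroup G)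
    · intro r hr Q hQ
      rw [Finset.mem_sdiff] at hQ ⊢
      refine ⟨hX'c r hr Q hQ.1, fun h => hQ.2 ?_⟩
      obtain ⟨P1, hP1, hQ1⟩ := Finset.mem_biUnion.mp h
      refine Finset.mem_biUnion.mpr ⟨P1, hP1, ?_⟩
      have h1 := hQQc P1 hP1 r⁻¹ (P.inv_mem hr) _ hQ1
      rwa [← mul_smul, ← map_mul, inv_mul_cancel, map_one, one_smul] at h1
    · intro Q hQ
      rw [Finset.mem_sdiff, memX'] at hQ
      have hpi : ∃ j, (normalizer (Q : Set G)).relIndex P = p ^ j := by
        have := P.isPGroup'.index ((normalizer (Q : Set G)).subgroupOf P)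
        exact this
      obtain ⟨j, hj⟩ := hpi
      rw [hj]
      apply pow_dvd_pow
      by_contra hcon
      have h01 : j = 0 ∨ j = 1 := by omega
      rcases h01 with h | h
      · rw [h, pow_zero, relIndex_eq_one] at hj
        exact hQ.1.2 (le_of_normalizes P (hpc Q hQ.1.1) hj)
      · rw [h, pow_one] at hj
        apply hQ.2
        refine Finset.mem_biUnion.mpr ⟨normalizer (Q : Set G) ⊓ P, ?_, ?_⟩
        · rw [memMM]
          exact ⟨inf_le_right, by rw [inf_relIndex_right, hj]⟩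
        · rw [memQQ]
          exact ⟨hQ.1, inf_le_left⟩
  have hX'd : p ^ 2 ∣ X'.card := by
    rw [← Finset.card_sdiff_add_card_eq_card hX1s]
    exact dvd_add hX2 hX1
  have hsplit : (Sk p a (⊤ : Subgroup G)).card = (Sk p a (P : Subgroup G)).card + X'.card := by
    rw [← Finset.card_filter_add_card_filter_not (s := Sk p a (⊤ : Subgroup G)) (fun Q : Subgroup G => Q ≤ P)]
    congr 2
    ext Q
    rw [Finset.mem_filter, mem_Sk, mem_Sk]
    simp
  rw [hsplit]
  have := Nat.ModEq.add_left (Sk p a (P : Subgroup G)).card ((Nat.modEq_zero_iff_dvd).mpr hX'd)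
  simpa using this

end main

end Cfsg.Agent.H23.Kula
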