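import Cfsg.Agent.H23_Kula3
import Cfsg.Agent.H23_Taussky

set_option autoImplicit false
set_option linter.style.haveILetI false

/-! H23_Kula5: Kulakoff's theorem for `p = 2`. -/

namespace Cfsg.Agent.H23.Kula

open Subgroup Finset
open Cfsg.Agent.H2.PGroup
open scoped commutatorElement

universe u

theorem r_cases {r : ℤ} {e : ℕ} (h : (2 : ℤ) ^ (e + 1) ∣ r ^ 2 - 1) :
    (2 : ℤ) ^ e ∣ r - 1 ∨ (2 : ℤ) ^ e ∣ r + 1 := by
  rcases Nat.eq_zero_or_pos e with h0 | h0
  · left; rw [h0, pow_zero]; exact one_dvd _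
  have hodd : ¬ (2 : ℤ) ∣ r := by
    intro h2
    have h3 : (2 : ℤ) ∣ r ^ 2 - 1 := (dvd_pow_self 2 (by omega)).trans h
    have h4 : (2 : ℤ) ∣ r ^ 2 := h2.trans (dvd_pow_self r (by norm_num))
    have h5 := dvd_sub h4 h3
    norm_num at h5
  have e1 : r ^ 2 - 1 = (r - 1) * (r + 1) := by ring
  rw [e1] at h
  have hm : r % 4 = 1 ∨ r % 4 = 3 := by omega
  rcases hm with hm | hm
  · left
    obtain ⟨k, hk⟩ : ∃ k, r + 1 = 2 * (2 * k + 1) := ⟨(r + 1) / 4, by omega⟩
    rw [hk] at h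
    have h1 : (2 : ℤ) ^ e * 2 ∣ ((r - 1) * (2 * k + 1)) * 2 := by
      rw [← pow_succ]; convert h using 1; ring
    have h2 : (2 : ℤ) ^ e ∣ (r - 1) * (2 * k + 1) := Int.dvd_of_mul_dvd_mul_right (by norm_num) h1
    refine IsCoprime.dvd_of_dvd_mul_right ?_ h2
    apply IsCoprime.pow_left
    exact ⟨-k, 1, by ring⟩
  · right
    obtain ⟨k, hk⟩ : ∃ k, r - 1 = 2 * (2 * k + 1) := ⟨(r - 1) / 4, by omega⟩
    rw [hk] at h
    have h1 : (2 : ℤ) ^ e * 2 ∣ ((r + 1) * (2 * k + 1)) * 2 := by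
      rw [← pow_succ]; convert h using 1; ring
    have h2 : (2 : ℤ) ^ e ∣ (r + 1) * (2 * k + 1) := Int.dvd_of_mul_dvd_mul_right (by norm_num) h1
    refine IsCoprime.dvd_of_dvd_mul_right ?_ h2
    apply IsCoprime.pow_left
    exact ⟨-k, 1, by ring⟩

/-- in the dihedral-like case `r - 1` is twice a unit -/
theorem exists_unit {r : ℤ} {e n : ℕ} (he : 2 ≤ e) (h : (2 : ℤ) ^ e ∣ r + 1) :
    ∃ v : ℤ, (2 : ℤ) ^ n ∣ (r - 1) * v - 2 := by
  have h4 : (4 : ℤ) ∣ r + 1 := by
    have : (2 : ℤ) ^ 2 ∣ 2 ^ e := pow_dvd_pow 2 he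
    norm_num at this
    exact this.trans h
  obtain ⟨k, hk⟩ : ∃ k, r - 1 = 2 * (2 * k + 1) := ⟨(r - 1) / 4, by omega⟩
  have hc : IsCoprime (2 * k + 1) ((2 : ℤ) ^ n) := by
    apply IsCoprime.pow_right
    exact ⟨1, -k, by ring⟩
  obtain ⟨a, b, hab⟩ := hc
  refine ⟨a, -(2 * b), ?_⟩
  rw [hk]
  have : 2 * (2 * k + 1) * a - 2 = 2 * (a * (2 * k + 1)) - 2 := by ring
  rw [this]
  have h5 : a * (2 * k + 1) = 1 - b * 2 ^ n := by linarith
  rw [h5]; ring

section

variable {P : Type u} [Group P] [Finite P]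

theorem get_r {p : ℕ} [hp : Fact p.Prime] {m : ℕ} (hm : Nat.card P = p ^ m) (hm1 : 1 ≤ m) {x g : P}
    (hx : orderOf x = p ^ (m - 1)) :
    ∃ r : ℤ, g * x * g⁻¹ = x ^ r ∧ (p : ℤ) ^ (m - 1) ∣ r ^ p - 1 := by
  have hP : IsPGroup p P := IsPGroup.of_card hm
  have hi := index_zpowers hm hm1 hx
  have hCn := normal_of_index_p hP hi
  obtain ⟨r, hr⟩ := hCn.conj_mem x (mem_zpowers _) g
  have hr' : g * x * g⁻¹ = x ^ r := hr.symm
  have hiter : ∀ k : ℕ, g ^ k * x * (g ^ k)⁻¹ = x ^ (r ^ k) := by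
    intro k
    induction k with
    | zero => simp
    | succ k ih =>
      rw [pow_succ' g]
      calc g * g ^ k * x * (g * g ^ k)⁻¹ = g * (g ^ k * x * (g ^ k)⁻¹) * g⁻¹ := by group
        _ = g * x ^ (r ^ k) * g⁻¹ := by rw [ih]
        _ = (g * x * g⁻¹) ^ (r ^ k) := by rw [conj_zpow]
        _ = _ := by rw [hr', ← zpow_mul, pow_succ']
  have hgp : g ^ p ∈ zpowers x := by
    have := Subgroup.pow_index_mem (zpowers x) g
    rwa [hi] at this
  obtain ⟨k, hk⟩ := hgp
  have hk' : x ^ k = g ^ p := hk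
  have h1 : x ^ (r ^ p - 1) = 1 := by
    have h2 := hiter p
    rw [← hk'] at h2
    have h3 : x ^ k * x * (x ^ k)⁻¹ = x := by group
    rw [h3] at h2
    rw [zpow_sub_one, ← h2, mul_inv_cancel]
  refine ⟨r, hr', ?_⟩
  have h3 := orderOf_dvd_iff_zpow_eq_one.mpr h1
  rw [hx] at h3
  exact_mod_cast h3

variable [hp : Fact (Nat.Prime 2)]

theorem four_dvd (hP : IsPGroup 2 P) (hnc : ¬ IsCyclic P) : 4 ∣ (commutator P).index := by
  have h1 := frattini_index hP hnc
  rw [bot_sup_eq] at h1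
  exact h1.trans (index_dvd_of_le (commutator_le_frattini hP))

theorem exists_gen_of {m : ℕ} (hm : Nat.card P = 2 ^ m) (hm1 : 1 ≤ m) {M : Subgroup P}
    (hM : M ∈ Mx 2 (⊥ : Subgroup P)) (hc : IsCyclic M) :
    ∃ x : P, orderOf x = 2 ^ (m - 1) ∧ M = zpowers x := by
  obtain ⟨x, hx⟩ := hc.exists_generator
  have hMcard := card_of_Mx hm hm1 hM
  have hxo : orderOf (x : P) = 2 ^ (m - 1) := by
    rw [Subgroup.orderOf_coe, orderOf_eq_card_of_forall_mem_zpowers hx, hMcard]
  refine ⟨x, hxo, ?_⟩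
  symm
  apply Subgroup.eq_of_le_of_card_ge
  · rw [zpowers_le]; exact x.2
  · rw [Nat.card_zpowers, hxo, hMcard]

theorem comm_sq {m : ℕ} (hm4 : 4 ≤ m) {x g : P} (hx : orderOf x = 2 ^ (m - 1))
    {r : ℤ} (hr : g * x * g⁻¹ = x ^ r) (h : (2 : ℤ) ^ (m - 2) ∣ r + 1) (i : ℤ) {L : Subgroup P}
    (hL : ⁅g, x ^ i⁆ ∈ L) : x ^ (2 * i) ∈ L := by
  obtain ⟨v, hv⟩ := exists_unit (n := m - 1) (show 2 ≤ m - 2 by omega) h
  have h1 : ⁅g, x ^ i⁆ = x ^ ((r - 1) * i) := by
    rw [commutatorElement_def, ← conj_zpow, hr, ← zpow_mul, ← zpow_neg, ← zpow_add]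
    congr 1; ring
  have h2 : x ^ (2 * i) = (x ^ ((r - 1) * i)) ^ v := by
    rw [← zpow_mul, zpow_eq_zpow_iff_modEq, hx, Int.modEq_iff_dvd]
    push_cast
    obtain ⟨c, hc⟩ := hv
    refine ⟨c * i, ?_⟩
    have : (r - 1) * i * v - 2 * i = ((r - 1) * v - 2) * i := by ring
    rw [this, hc]; ring
  rw [h2, ← h1]
  exact L.zpow_mem hL v

/-- `p = 2` analogue of `cyc_odd` -/
theorem cyc_two {m : ℕ} (hm : Nat.card P = 2 ^ m) (hm3 : 3 ≤ m) (hnc : ¬ IsCyclic P)
    (hcl : (commutator P).index ≠ 4) :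
    (∀ M ∈ Mx 2 (⊥ : Subgroup P), ¬ IsCyclic M) ∨
    ∃ K ∈ Mx 2 (⊥ : Subgroup P), ∀ M ∈ Mx 2 (⊥ : Subgroup P), IsCyclic M ↔ M ≠ K := by
  have hP : IsPGroup 2 P := IsPGroup.of_card hm
  by_cases hex : ∀ M ∈ Mx 2 (⊥ : Subgroup P), ¬ IsCyclic M
  · left; exact hex
  right
  push Not at hex
  obtain ⟨M, hM, hMc⟩ := hex
  obtain ⟨x, hxo, -⟩ := exists_gen_of hm (by omega) hM hMc
  have hi := index_zpowers hm (by omega) hxo
  obtain ⟨g, hg⟩ : ∃ g, g ∉ zpowers x := by
    by_contra hcon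
    push Not at hcon
    have : zpowers x = ⊤ := eq_top_iff.mpr fun y _ => hcon y
    rw [this, index_top] at hi
    norm_num at hi
  obtain ⟨r, hr, hr2⟩ := get_r (p := 2) hm (by omega) (g := g) hxo
  have h4 := four_dvd hP hnc
  have hr1 : (2 : ℤ) ^ (m - 2) ∣ r - 1 := by
    have h2 : (2 : ℤ) ^ (m - 2 + 1) ∣ r ^ 2 - 1 := by
      rw [show m - 2 + 1 = m - 1 by omega]; exact_mod_cast hr2
    rcases r_cases h2 with h3 | h3
    · exact h3
    · by_cases hm4 : m = 3
      · subst hm4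
        norm_num at h3 ⊢
        omega
      · exfalso
        apply hcl
        have h5 : x ^ (2 * (1 : ℤ)) ∈ commutator P := by
          apply comm_sq (by omega) hxo hr h3 1
          exact commutator_mem_commutator (mem_top _) (mem_top _)
        have h6 : zpowers (x ^ 2) ≤ commutator P := by
          rw [zpowers_le]
          have : x ^ (2 * (1 : ℤ)) = x ^ 2 := by norm_cast
          rw [← this]; exact h5
        have h7 : (zpowers (x ^ 2)).index = 4 := by
          have h8 := (zpowers (x ^ 2)).card_mul_index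
          rw [Nat.card_zpowers, orderOf_pow, hxo, hm] at h8
          have h9 : Nat.gcd (2 ^ (m - 1)) 2 = 2 := by
            apply Nat.gcd_eq_right
            exact dvd_pow_self 2 (by omega)
          rw [h9] at h8
          have h10 : 2 ^ (m - 1) / 2 = 2 ^ (m - 2) := by
            rw [show m - 1 = (m - 2) + 1 by omega, pow_succ]; simp
          rw [h10] at h8
          apply Nat.eq_of_mul_eq_mul_left (pow_pos (by norm_num : 0 < 2) (m - 2))
          rw [h8, show m = (m - 2) + 2 by omega, pow_add]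
          simp
        have h8 := index_dvd_of_le h6
        rw [h7] at h8
        exact Nat.dvd_antisymm h8 h4
  have hA := struct hm hm3 hxo hg hr hr1
  refine cyc_all hm hm3 hnc hxo (hom_pow hA ?_)
  by_cases hm4 : m = 3
  · right
    subst hm4
    by_contra hab
    push Not at hab
    apply hcl
    -- |P| = 8, commutator of order 2
    have h5 : Nat.card (center P) ≤ 2 := by
      by_contra hcon
      have h6 : Nat.card (center P) ∣ 2 ^ 3 := by rw [← hm]; exact card_subgroup_dvd_card _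
      obtain ⟨j, hj, hj2⟩ := (Nat.dvd_prime_pow Nat.prime_two).mp h6
      have h7 : 2 ≤ j := by
        by_contra h8
        have : j = 0 ∨ j = 1 := by omega
        rcases this with rfl | rfl <;> omega
      have h8 : (center P).index ∣ 2 := by
        have h9 := (center P).card_mul_index
        rw [hj2, hm] at h9
        have h10 : j = 2 ∨ j = 3 := by omega
        rcases h10 with rfl | rfl
        · norm_num at h9; rw [show (center P).index = 2 by omega]
        · norm_num at h9; rw [h9]; norm_num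
      rcases (Nat.dvd_prime Nat.prime_two).mp h8 with h9 | h9
      · rw [Subgroup.index_eq_one] at h9
        obtain ⟨a, b, hab⟩ := hab
        apply hab
        have : b ∈ center P := by rw [h9]; trivial
        exact mem_center_iff.mp this a
      · exact H2.MaxClass.quot_not_prime (p := 2) h9
    have h6 : commutator P ≤ center P := by
      rw [commutator_def, commutator_le]
      intro a _ b _
      exact (hA a b).1
    have h7 : Nat.card (commutator P) ≤ 2 := (Nat.le_of_dvd Nat.card_pos (card_dvd_of_le h6)).trans h5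
    have h8 := (commutator P).card_mul_index
    rw [hm] at h8
    have h9 : Nat.card (commutator P) ≠ 1 := by
      intro h10
      rw [Subgroup.card_eq_one] at h10
      obtain ⟨a, b, hab⟩ := hab
      apply hab
      have h11 : ⁅a, b⁆ ∈ commutator P := commutator_mem_commutator (mem_top _) (mem_top _)
      rw [h10, mem_bot, commutatorElement_eq_one_iff_mul_comm] at h11
      exact h11
    have h10 : Nat.card (commutator P) = 2 := by
      have := Nat.card_pos (α := commutator P)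
      omega
    rw [h10] at h8
    omega
  · left
    have h5 : 2 * (2 ^ (m - 2)).choose 2 = 2 ^ (m - 2) * (2 ^ (m - 2) - 1) := H2.Alperin.two_mul_choose _
    have h6 : (4 : ℕ) ∣ 2 ^ (m - 2) := by
      have : 2 ^ 2 ∣ 2 ^ (m - 2) := pow_dvd_pow 2 (by omega)
      exact this
    have h7 : 4 ∣ 2 * (2 ^ (m - 2)).choose 2 := by rw [h5]; exact h6.mul_right _
    omega

end

end Cfsg.Agent.H23.Kula
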