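import Cfsg.Agent.H23_Kula5
import Cfsg.Agent.H2_MaxClass

set_option autoImplicit false
set_option linter.style.haveILetI false

/-! H23_Kula6: subgroup counts in `2`-groups of maximal class. -/

namespace Cfsg.Agent.H23.Kula

open Subgroup Finset
open Cfsg.Agent.H2.PGroup
open scoped commutatorElement

universe u

section

variable {P : Type u} [Group P] [Finite P]

theorem sum_par (S : Finset (Subgroup P)) (f : Subgroup P → ℕ) (G : Subgroup P → Prop) [DecidablePred G]
    (hS : S.card ≡ 3 [MOD 4]) (h1 : ∀ M ∈ S, G M → f M ≡ 1 [MOD 4])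
    (h3 : ∀ M ∈ S, ¬ G M → f M ≡ 3 [MOD 4]) :
    ∑ M ∈ S, f M + 2 * (S.filter G).card ≡ 1 [MOD 4] := by
  have e1 : ∑ M ∈ S, f M + 2 * (S.filter G).card ≡ ∑ M ∈ S, 3 [MOD 4] := by
    rw [Finset.card_filter, Finset.mul_sum, ← Finset.sum_add_distrib]
    apply Nat.ModEq.sum
    intro M hM
    by_cases hG : G M
    · simp only [hG, if_true]
      exact Nat.ModEq.add_right 2 (h1 M hM hG)
    · simp only [hG, if_false]
      exact h3 M hM hG
  refine e1.trans ?_
  rw [Finset.sum_const, smul_eq_mul]
  exact (Nat.ModEq.mul_right 3 hS).trans (by decide)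

variable [hp : Fact (Nat.Prime 2)]

theorem nab_of_index {n : ℕ} (hm : Nat.card P = 2 ^ n) (hn : 3 ≤ n) (hcl : (commutator P).index = 4) :
    ¬ ∀ a b : P, a * b = b * a := by
  intro h
  have h1 : commutator P = ⊥ := by
    rw [eq_bot_iff, commutator_def, commutator_le]
    intro a _ b _
    rw [mem_bot, commutatorElement_eq_one_iff_mul_comm]; exact h a b
  rw [h1, index_bot, hm] at hcl
  have : 2 ^ 3 ≤ 2 ^ n := Nat.pow_le_pow_right (by norm_num) hn
  omega

theorem max_r {n : ℕ} (hm : Nat.card P = 2 ^ n) (hn : 3 ≤ n) (hcl : (commutator P).index = 4)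
    {x g : P} (hx : orderOf x = 2 ^ (n - 1)) (hg : g ∉ zpowers x) {r : ℤ} (hr : g * x * g⁻¹ = x ^ r)
    (hr2 : (2 : ℤ) ^ (n - 1) ∣ r ^ 2 - 1) : (4 : ℤ) ∣ r + 1 ∧ (2 : ℤ) ^ (n - 2) ∣ r + 1 := by
  have hnab := nab_of_index hm hn hcl
  have hi := index_zpowers hm (by omega) hx
  by_cases h3 : n = 3
  · subst h3
    have hodd : r % 4 = 1 ∨ r % 4 = 3 := by
      have h0 : (2 : ℤ) ∣ r ^ 2 - 1 := (by norm_num : (2 : ℤ) ∣ 2 ^ (3 - 1)).trans hr2
      by_contra hcon
      have h1 : (2 : ℤ) ∣ r := by omega
      have h4 : (2 : ℤ) ∣ r ^ 2 := h1.trans (dvd_pow_self r (by norm_num))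
      have h5 := dvd_sub h4 h0
      norm_num at h5
    rcases hodd with h | h
    · exfalso
      apply hnab
      have h5 : g * x = x * g := by
        have h6 : x ^ r = x := by
          nth_rewrite 2 [← zpow_one x]
          rw [zpow_eq_zpow_iff_modEq, hx]
          show r % ((2 ^ (3 - 1) : ℕ) : ℤ) = 1 % ((2 ^ (3 - 1) : ℕ) : ℤ)
          norm_num; exact h
        rw [h6] at hr
        exact mul_inv_eq_iff_eq_mul.mp hr
      have h6 : x ∈ center P := H2.MaxClass.mem_center_of (p := 2) hi hg
        (by rintro c ⟨j, rfl⟩; exact ((Commute.refl x).zpow_left j).eq) h5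
      have h7 : g ∈ center P := H2.MaxClass.mem_center_of (p := 2) hi hg
        (by
          rintro c ⟨j, rfl⟩
          have : Commute x g := h5.symm
          exact (this.zpow_left j).eq) rfl
      have h8 : center P = ⊤ := H2.MaxClass.top_of_mem (p := 2) hi hg (by rw [zpowers_le]; exact h6) h7
      intro a b
      have : b ∈ center P := by rw [h8]; trivial
      exact mem_center_iff.mp this a
    · constructor
      · omega
      · norm_num; omega
  · have h2 : (2 : ℤ) ^ (n - 2 + 1) ∣ r ^ 2 - 1 := by
      rw [show n - 2 + 1 = n - 1 by omega]; exact hr2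
    rcases r_cases h2 with h4 | h4
    · exfalso
      have hA := struct hm hn hx hg hr h4
      have h5 : commutator P ≤ center P := by
        rw [commutator_def, commutator_le]
        intro a _ b _
        exact (hA a b).1
      have h6 := (H2.MaxClass.center_of_max (p := 2) hm hn (H2.MaxClass.max_of_klein n P hn hm hcl)).1
      have h7 : Nat.card (commutator P) ≤ 2 := by
        have := Nat.le_of_dvd Nat.card_pos (card_dvd_of_le h5)
        omega
      have h8 := (commutator P).card_mul_index
      rw [hcl, hm] at h8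
      have : 2 ^ 4 ≤ 2 ^ n := Nat.pow_le_pow_right (by norm_num) (by omega)
      omega
    · refine ⟨?_, h4⟩
      have : (2 : ℤ) ^ 2 ∣ 2 ^ (n - 2) := pow_dvd_pow 2 (by omega)
      norm_num at this
      exact this.trans h4

theorem sq_sq {n : ℕ} (hm : Nat.card P = 2 ^ n) (hn : 3 ≤ n) (hcl : (commutator P).index = 4)
    {x g : P} (hx : orderOf x = 2 ^ (n - 1)) (hg : g ∉ zpowers x) : g ^ 4 = 1 := by
  obtain ⟨r, hr, hr2⟩ := get_r (p := 2) hm (by omega) (g := g) hx
  have h4 := (max_r hm hn hcl hx hg hr (by exact_mod_cast hr2)).1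
  obtain ⟨v, hv⟩ := exists_unit (n := n - 1) (e := 2) le_rfl (by norm_num; exact h4)
  have hi := index_zpowers hm (by omega) hx
  have hgp : g ^ 2 ∈ zpowers x := by
    have hno := normal_of_index_p (IsPGroup.of_card hm) hi
    have := Subgroup.pow_index_mem (zpowers x) g
    rwa [hi] at this
  obtain ⟨k, hk⟩ := hgp
  have hk' : x ^ k = g ^ 2 := hk
  have h1 : x ^ ((r - 1) * k) = 1 := by
    have h2 : g * x ^ k * g⁻¹ = x ^ k := by rw [hk']; group
    rw [← conj_zpow, hr, ← zpow_mul] at h2
    rw [sub_mul, one_mul, zpow_sub, h2, mul_inv_cancel]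
  have h2 : x ^ (2 * k) = 1 := by
    have : x ^ (2 * k) = (x ^ ((r - 1) * k)) ^ v := by
      rw [← zpow_mul, zpow_eq_zpow_iff_modEq, hx, Int.modEq_iff_dvd]
      push_cast
      obtain ⟨c, hc⟩ := hv
      refine ⟨c * k, ?_⟩
      have : (r - 1) * k * v - 2 * k = ((r - 1) * v - 2) * k := by ring
      rw [this, hc]; ring
    rw [this, h1, one_zpow]
  calc g ^ 4 = (g ^ 2) ^ 2 := by rw [← pow_mul]
    _ = (x ^ k) ^ 2 := by rw [hk']
    _ = x ^ (2 * k) := by rw [pow_two, ← zpow_add]; congr 1; ring
    _ = 1 := h2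

theorem cyc_count_odd {n : ℕ} (hm : Nat.card P = 2 ^ n) (hn : 3 ≤ n) (hcl : (commutator P).index = 4)
    {x : P} (hx : orderOf x = 2 ^ (n - 1)) [DecidablePred (fun M : Subgroup P => IsCyclic M)] :
    ¬ 2 ∣ ((Mx 2 (⊥ : Subgroup P)).filter (fun M : Subgroup P => IsCyclic M)).card := by
  have hi := index_zpowers hm (by omega) hx
  have hP : IsPGroup 2 P := IsPGroup.of_card hm
  have hxM : zpowers x ∈ Mx 2 (⊥ : Subgroup P) := mem_Mx.mpr ⟨hi, bot_le⟩
  have hnab := nab_of_index hm hn hcl
  have hnc : ¬ IsCyclic P := fun h => hnab (letI := IsCyclic.commGroup (α := P); fun a b => mul_comm a b)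
  -- if all generators are in `zpowers x`
  have hone : (∀ y : P, orderOf y = 2 ^ (n - 1) → y ∈ zpowers x) →
      ((Mx 2 (⊥ : Subgroup P)).filter (fun M : Subgroup P => IsCyclic M)) = {zpowers x} := by
    intro hy
    ext M
    rw [Finset.mem_filter, Finset.mem_singleton]
    constructor
    · rintro ⟨hM, hMc⟩
      obtain ⟨y, hyo, rfl⟩ := exists_gen_of hm (by omega) hM hMc
      apply Subgroup.eq_of_le_of_card_ge
      · rw [zpowers_le]; exact hy y hyo
      · rw [Nat.card_zpowers, Nat.card_zpowers, hx, hyo]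
    · rintro rfl
      exact ⟨hxM, inferInstance⟩
  by_cases h3 : n = 3
  · subst h3
    obtain ⟨g, hg⟩ : ∃ g, g ∉ zpowers x := by
      by_contra hcon
      push Not at hcon
      have : zpowers x = ⊤ := eq_top_iff.mpr fun y _ => hcon y
      rw [this, index_top] at hi
      norm_num at hi
    obtain ⟨r, hr, hr2⟩ := get_r (p := 2) hm (by omega) (g := g) hx
    have h4 := (max_r hm hn hcl hx hg hr (by exact_mod_cast hr2)).1
    have hgp : g ^ 2 ∈ zpowers x := by
      have hno := normal_of_index_p hP hi
      have := Subgroup.pow_index_mem (zpowers x) g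
      rwa [hi] at this
    have hsq : ∀ y : P, y ∉ zpowers x → y ^ 2 = g ^ 2 := by
      intro y hy
      have h5 : g⁻¹ * y ∈ zpowers x := H2.MaxClass.mul_mem_of_not_mem hi (by rwa [inv_mem_iff]) hy
      obtain ⟨i, hi'⟩ := h5
      have hi2 : x ^ i = g⁻¹ * y := hi'
      have hy' : y = g * x ^ i := by rw [hi2]; group
      obtain ⟨k, hk⟩ := hgp
      have hk' : x ^ k = g ^ 2 := hk
      rw [hy', pow_two]
      calc g * x ^ i * (g * x ^ i) = (g * x ^ i * g⁻¹) * (g ^ 2 * x ^ i) := by group
        _ = x ^ (r * i) * (x ^ k * x ^ i) := by rw [← conj_zpow, hr, ← zpow_mul, hk']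
        _ = x ^ ((r + 1) * i) * x ^ k := by
            rw [← zpow_add, ← zpow_add, ← zpow_add]; congr 1; ring
        _ = x ^ k := by
            have h6 : x ^ ((r + 1) * i) = 1 := by
              rw [← orderOf_dvd_iff_zpow_eq_one, hx]
              exact Dvd.dvd.mul_right (by norm_num; exact h4) i
            rw [h6, one_mul]
        _ = g ^ 2 := hk'
    by_cases hg2 : g ^ 2 = 1
    · rw [hone]
      · simp
      · intro y hyo
        by_contra hy
        have h5 := hsq y hy
        rw [hg2] at h5
        have h6 := orderOf_dvd_of_pow_eq_one h5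
        rw [hyo] at h6
        norm_num at h6
    · have hall' : ((Mx 2 (⊥ : Subgroup P)).filter (fun M : Subgroup P => IsCyclic M)) = Mx 2 (⊥ : Subgroup P) := by
        rw [Finset.filter_eq_self]
        intro M hM
        by_cases hMx : M = zpowers x
        · rw [hMx]; infer_instance
        · obtain ⟨y, hyM, hyx⟩ : ∃ y ∈ M, y ∉ zpowers x := by
            by_contra hcon
            push Not at hcon
            apply hMx
            apply Subgroup.eq_of_le_of_card_ge hcon
            rw [card_of_Mx hm (by omega) hM, card_of_Mx hm (by omega) hxM]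
          have h5 := hsq y hyx
          have h6 := sq_sq hm hn hcl hx hyx
          have h7 : orderOf y = 2 ^ 2 := by
            apply orderOf_eq_prime_pow
            · rw [pow_one, h5]; exact hg2
            · exact h6
          have h8 : zpowers y = M := by
            apply Subgroup.eq_of_le_of_card_ge
            · rw [zpowers_le]; exact hyM
            · rw [Nat.card_zpowers, h7, card_of_Mx hm (by omega) hM]
          rw [← h8]; infer_instance
      rw [hall']
      have h5 := mx_bot hP hnc
      intro h6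
      have h7 : (Mx 2 (⊥ : Subgroup P)).card % 4 = 3 := h5
      omega
  · rw [hone]
    · simp
    · intro y hyo
      by_contra hy
      have h5 := orderOf_dvd_of_pow_eq_one (sq_sq hm hn hcl hx hy)
      rw [hyo] at h5
      have h6 : 2 ^ 3 ∣ 4 := (pow_dvd_pow 2 (by omega)).trans h5
      norm_num at h6

end

theorem maxcl (n : ℕ) : ∀ (P : Type u) [Group P] [Finite P], Nat.card P = 2 ^ n → 3 ≤ n →
    (commutator P).index = 4 → ∀ k, 1 ≤ k → k + 2 ≤ n → (Sk 2 k (⊤ : Subgroup P)).card ≡ 1 [MOD 4] := by
  classical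
  induction n with
  | zero => intro P _ _ _ h; omega
  | succ n ih =>
    intro P _ _ hP hn hcl k hk1 hk2
    haveI : Fact (Nat.Prime 2) := ⟨Nat.prime_two⟩
    have hpg : IsPGroup 2 P := IsPGroup.of_card hP
    have hnab := nab_of_index hP hn hcl
    have hnc : ¬ IsCyclic P := fun h => hnab (letI := IsCyclic.commGroup (α := P); fun a b => mul_comm a b)
    obtain ⟨C, hCc, hCi⟩ := H2.MaxClass.exists_cyclic (n+1) P hn hP (H2.MaxClass.max_of_klein (n+1) P hn hP hcl)
    obtain ⟨x, hx, hCx⟩ := exists_gen_of hP (by omega) (mem_Mx.mpr ⟨hCi, bot_le⟩) hCc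
    have hxi := index_zpowers hP (by omega) hx
    have h1 : ∑ M ∈ Mx 2 (⊥ : Subgroup P), (Sk 2 k M).card ≡ (Sk 2 k (⊤ : Subgroup P)).card + 2 [MOD 4] :=
      hall hpg hP hnc hk2
    have h2 : (Mx 2 (⊥ : Subgroup P)).card ≡ 3 [MOD 4] := mx_bot hpg hnc
    have hterm1 : ∀ M ∈ Mx 2 (⊥ : Subgroup P), IsCyclic M → (Sk 2 k M).card = 1 := by
      intro M hM hMc
      rw [card_Sk]
      apply cyc_one hMc
      rw [card_of_Mx hP (by omega) hM]
      exact pow_dvd_pow 2 (by omega)
    have h3 : ∑ M ∈ Mx 2 (⊥ : Subgroup P), (Sk 2 k M).card ≡ 3 [MOD 4] := by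
      by_cases hkn : k + 1 = n
      · have h4 := sum_par (Mx 2 (⊥ : Subgroup P)) (fun M => (Sk 2 k M).card) (fun M => IsCyclic M) h2
          (fun M hM hMc => by rw [hterm1 M hM hMc]) (fun M hM hMc => by
            rw [card_Sk, ← card_Sk_top]
            have h5 : Nat.card M = 2 ^ n := by rw [card_of_Mx hP (by omega) hM]; simp
            have h6 := Sk_coatom h5 (by omega)
            rw [show n - 1 = k by omega] at h6
            rw [h6]
            exact mx_bot (IsPGroup.of_card h5) hMc)
        have h5 := cyc_count_odd hP hn hcl hx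
        have h6 : (∑ M ∈ Mx 2 (⊥ : Subgroup P), (Sk 2 k M).card +
          2 * ((Mx 2 (⊥ : Subgroup P)).filter (fun M : Subgroup P => IsCyclic M)).card) % 4 = 1 := h4
        show (∑ M ∈ Mx 2 (⊥ : Subgroup P), (Sk 2 k M).card) % 4 = 3
        omega
      · have h4 : ∑ M ∈ Mx 2 (⊥ : Subgroup P), (Sk 2 k M).card ≡ ∑ M ∈ Mx 2 (⊥ : Subgroup P), 1 [MOD 4] := by
          apply Nat.ModEq.sum
          intro M hM
          by_cases hMc : IsCyclic M
          · rw [hterm1 M hM hMc]
          · rw [card_Sk, ← card_Sk_top]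
            have h5 : Nat.card M = 2 ^ n := by rw [card_of_Mx hP (by omega) hM]; simp
            apply ih M h5 (by omega) _ k hk1 (by omega)
            -- commutator index is 4
            have hfr := frattini_le hpg (mem_Mx.mp hM).1
            have hx2 : x ^ 2 ∈ M := hfr (pow_mem_frattini hpg x)
            obtain ⟨g, hgM, hgx⟩ : ∃ y ∈ M, y ∉ zpowers x := by
              by_contra hcon
              push Not at hcon
              apply hMc
              have : M = zpowers x := by
                apply Subgroup.eq_of_le_of_card_ge hcon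
                rw [h5, Nat.card_zpowers, hx]; simp
              rw [this]; infer_instance
            obtain ⟨r, hr, hr2⟩ := get_r (p := 2) hP (by omega) (g := g) hx
            have hr3 := (max_r hP hn hcl hx hgx hr (by exact_mod_cast hr2)).2
            have h6 : x ^ (2 * (2 : ℤ)) ∈ (commutator M).map M.subtype := by
              apply comm_sq (m := n + 1) (by omega) hx hr hr3 2
              refine ⟨⁅(⟨g, hgM⟩ : M), (⟨x ^ (2 : ℤ), by exact_mod_cast hx2⟩ : M)⁆, ?_, ?_⟩
              · exact commutator_mem_commutator (mem_top _) (mem_top _)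
              · rfl
            have h7 : zpowers (x ^ 4) ≤ (commutator M).map M.subtype := by
              rw [zpowers_le]
              have : x ^ (2 * (2 : ℤ)) = x ^ 4 := by norm_cast
              rw [← this]; exact h6
            have h8 := card_dvd_of_le h7
            rw [Nat.card_zpowers, orderOf_pow, hx, Nat.card_congr (Subgroup.equivMapOfInjective _ _ M.subtype_injective).symm.toEquiv] at h8
            have h9 : Nat.gcd (2 ^ (n + 1 - 1)) 4 = 4 := by
              apply Nat.gcd_eq_right
              have : 2 ^ 2 ∣ 2 ^ (n + 1 - 1) := pow_dvd_pow 2 (by omega)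
              exact this
            rw [h9] at h8
            have h10 : 2 ^ (n + 1 - 1) / 4 = 2 ^ (n - 2) := by
              rw [show n + 1 - 1 = (n - 2) + 2 by omega, pow_add]; simp
            rw [h10] at h8
            have h11 := (commutator M).card_mul_index
            have h12 := four_dvd (IsPGroup.of_card h5) hMc
            have h13 : (commutator M).index ∣ 4 := by
              obtain ⟨c, hc⟩ := h8
              rw [hc, h5, show n = (n - 2) + 2 by omega, pow_add, mul_assoc] at h11
              have h14 := Nat.eq_of_mul_eq_mul_left (pow_pos (by norm_num : 0 < 2) _) h11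
              exact ⟨c, by rw [mul_comm]; simpa using h14.symm⟩
            exact Nat.dvd_antisymm h13 h12
        refine h4.trans ?_
        rw [Finset.sum_const, smul_eq_mul, mul_one]
        exact h2
    have h4 : (Sk 2 k (⊤ : Subgroup P)).card + 2 ≡ 1 + 2 [MOD 4] := h1.symm.trans h3
    exact Nat.ModEq.add_right_cancel' 2 h4

end Cfsg.Agent.H23.Kula
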