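import Cfsg.Agent.H23_Kula6

set_option autoImplicit false
set_option linter.style.haveILetI false

/-! H23_Kula7: the number of maximal subgroups of maximal class is even; Kulakoff for `p = 2`. -/

namespace Cfsg.Agent.H23.Kula

open Subgroup Finset
open Cfsg.Agent.H2.PGroup
open scoped commutatorElement

universe u

theorem center_index_four {Q : Type*} [Group Q] [Finite Q] (hQ : Nat.card Q = 16) (z : Q)
    (hz : ∀ a b : Q, ⁅a, b⁆ = 1 ∨ ⁅a, b⁆ = z) (hnab : ¬ ∀ a b : Q, a * b = b * a) :
    (center Q).index = 4 := by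
  have hmem : ∀ x g : Q, g ∈ centralizer ({x} : Set Q) ↔ ⁅g, x⁆ = 1 := by
    intro x g
    rw [mem_centralizer_singleton_iff, commutatorElement_eq_one_iff_mul_comm]
  have hC : ∀ x g h : Q, g ∉ centralizer ({x} : Set Q) → h ∉ centralizer ({x} : Set Q) →
      g⁻¹ * h ∈ centralizer ({x} : Set Q) := by
    intro x g h hg hh
    have h1 : ⁅g, x⁆ = z := (hz g x).resolve_left (fun h' => hg ((hmem x g).mpr h'))
    have h2 : ⁅h, x⁆ = z := (hz h x).resolve_left (fun h' => hh ((hmem x h).mpr h'))
    have h3 : g * x * g⁻¹ = h * x * h⁻¹ := by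
      have e1 : g * x * g⁻¹ = ⁅g, x⁆ * x := by rw [commutatorElement_def]; group
      have e2 : h * x * h⁻¹ = ⁅h, x⁆ * x := by rw [commutatorElement_def]; group
      rw [e1, e2, h1, h2]
    rw [mem_centralizer_singleton_iff]
    calc g⁻¹ * h * x = g⁻¹ * (h * x * h⁻¹) * h := by group
      _ = g⁻¹ * (g * x * g⁻¹) * h := by rw [h3]
      _ = x * (g⁻¹ * h) := by group
  push Not at hnab
  obtain ⟨x, y, hxy⟩ := hnab
  have hxCx : x ∈ centralizer ({x} : Set Q) := by rw [mem_centralizer_singleton_iff]
  have hyCy : y ∈ centralizer ({y} : Set Q) := by rw [mem_centralizer_singleton_iff]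
  have hyCx : y ∉ centralizer ({x} : Set Q) := by
    rw [mem_centralizer_singleton_iff]; exact fun h => hxy h.symm
  have hxCy : x ∉ centralizer ({y} : Set Q) := by
    rw [mem_centralizer_singleton_iff]; exact hxy
  have hidx : ∀ x g : Q, g ∉ centralizer ({x} : Set Q) → (centralizer ({x} : Set Q)).index = 2 := by
    intro x g hg
    rw [Subgroup.index_eq_two_iff]
    refine ⟨g, fun b => ?_⟩
    by_cases hb : b ∈ centralizer ({x} : Set Q)
    · right
      refine ⟨hb, fun h => hg ?_⟩
      exact (Subgroup.mul_mem_cancel_left _ hb).mp h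
    · left
      refine ⟨?_, hb⟩
      have h1 := hC x b⁻¹ g (by rwa [inv_mem_iff]) hg
      rwa [inv_inv] at h1
  set W : Subgroup Q := centralizer ({x} : Set Q) ⊓ centralizer ({y} : Set Q) with hW
  have hix := hidx x y hyCx
  have hiy := hidx y x hxCy
  have hWi : W.index = 4 := by
    have h1 : W.index ≤ 4 := by
      have := Subgroup.index_inf_le (H := centralizer ({x} : Set Q)) (K := centralizer ({y} : Set Q))
      rw [hix, hiy] at this
      exact this
    have h2 := relIndex_mul_index (show W ≤ centralizer ({x} : Set Q) from inf_le_left)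
    rw [hix] at h2
    have h3 : W.relIndex (centralizer ({x} : Set Q)) ≠ 1 := by
      rw [Ne, relIndex_eq_one]
      intro h
      exact hxCy (h hxCx).2
    have h4 : W.index ≠ 0 := index_ne_zero_of_finite
    omega
  have hWc : Nat.card W = 2 ^ 2 := by
    have h1 := W.card_mul_index
    rw [hWi, hQ] at h1
    omega
  haveI : Fact (Nat.Prime 2) := ⟨Nat.prime_two⟩
  have hWab := IsPGroup.isMulCommutative_of_card_eq_prime_sq hWc
  have hWab' : ∀ a ∈ W, ∀ b ∈ W, a * b = b * a := by
    intro a ha b hb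
    have := hWab.is_comm.comm ⟨a, ha⟩ ⟨b, hb⟩
    exact congrArg Subtype.val this
  have hWZ : W ≤ center Q := by
    intro w hw
    rw [mem_center_iff]
    intro g
    have hwx : x * w = w * x := (mem_centralizer_singleton_iff.mp hw.1).symm
    have hwy : y * w = w * y := (mem_centralizer_singleton_iff.mp hw.2).symm
    have key : ∀ a b : Q, a * w = w * a → (a⁻¹ * b) * w = w * (a⁻¹ * b) → b * w = w * b := by
      intro a b h1 h2
      calc b * w = a * ((a⁻¹ * b) * w) := by group
        _ = a * (w * (a⁻¹ * b)) := by rw [h2]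
        _ = (a * w) * (a⁻¹ * b) := by group
        _ = (w * a) * (a⁻¹ * b) := by rw [h1]
        _ = w * b := by group
    -- modify `g` so that it centralizes `x`
    have step : ∀ g : Q, g ∈ centralizer ({x} : Set Q) → g * w = w * g := by
      intro g hgx
      by_cases hgy : g ∈ centralizer ({y} : Set Q)
      · exact hWab' g ⟨hgx, hgy⟩ w hw
      · apply key x g hwx
        apply hWab' _ _ w hw
        exact mem_inf.mpr ⟨mul_mem (inv_mem hxCx) hgx, hC y x g hxCy hgy⟩
    by_cases hgx : g ∈ centralizer ({x} : Set Q)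
    · exact step g hgx
    · exact key y g hwy (step _ (hC x y g hyCx hgx))
  have hZW : center Q ≤ W := by
    intro c hc
    refine mem_inf.mpr ⟨?_, ?_⟩
    · rw [mem_centralizer_singleton_iff]
      exact (mem_center_iff.mp hc x).symm
    · rw [mem_centralizer_singleton_iff]
      exact (mem_center_iff.mp hc y).symm
  rw [le_antisymm hZW hWZ, hWi]

section

variable {P : Type u} [Group P] [Finite P] [hp : Fact (Nat.Prime 2)]

theorem index_eight (hP : IsPGroup 2 P) (hnc : ¬ IsCyclic P) (hcl : (commutator P).index ≠ 4) :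
    8 ≤ (commutator P).index := by
  have h1 := four_dvd hP hnc
  obtain ⟨e, he⟩ := (IsPGroup.iff_card.mp hP)
  have h2 : (commutator P).index ∣ 2 ^ e := by rw [← he]; exact ⟨_, by rw [mul_comm]; exact (commutator P).card_mul_index.symm⟩
  obtain ⟨j, -, hj⟩ := (Nat.dvd_prime_pow Nat.prime_two).mp h2
  rw [hj] at h1 hcl ⊢
  have h3 : j ≠ 2 := by rintro rfl; exact hcl (by norm_num)
  have h4 : 3 ≤ j := by
    by_contra hcon
    have : j = 0 ∨ j = 1 := by omega
    rcases this with rfl | rfl <;> norm_num at h1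
  calc 8 = 2 ^ 3 := by norm_num
    _ ≤ 2 ^ j := Nat.pow_le_pow_right (by norm_num) h4

theorem t_even {m : ℕ} (hm : Nat.card P = 2 ^ m) (hm4 : 4 ≤ m) (hnc : ¬ IsCyclic P)
    (hcl : (commutator P).index ≠ 4) [DecidablePred (fun M : Subgroup P => (commutator M).index = 4)] :
    2 ∣ ((Mx 2 (⊥ : Subgroup P)).filter (fun M : Subgroup P => (commutator M).index = 4)).card := by
  classical
  have hP : IsPGroup 2 P := IsPGroup.of_card hm
  by_cases he : ∃ M ∈ Mx 2 (⊥ : Subgroup P), (commutator M).index = 4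
  swap
  · have : (Mx 2 (⊥ : Subgroup P)).filter (fun M : Subgroup P => (commutator M).index = 4) = ∅ := by
      rw [Finset.filter_eq_empty_iff]
      intro M hM h
      exact he ⟨M, hM, h⟩
    rw [this]; simp
  obtain ⟨M0, hM0, hM04⟩ := he
  set D := commutator P with hD
  have hle : ∀ M : Subgroup P, (commutator M).map M.subtype ≤ D := by
    intro M
    rw [commutator_def, Subgroup.map_commutator, hD, commutator_def]
    exact commutator_mono le_top le_top
  have hcardmap : ∀ M : Subgroup P, Nat.card ((commutator M).map M.subtype) = Nat.card (commutator M) := by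
    intro M
    exact Nat.card_congr (Subgroup.equivMapOfInjective _ _ M.subtype_injective).symm.toEquiv
  have hpow : 2 ^ m = 2 ^ (m - 4) * 16 := by
    rw [show m = (m - 4) + 4 by omega, pow_add]; simp
  have hpow1 : 2 ^ (m - 1) = 2 ^ (m - 4) * 8 := by
    rw [show m - 1 = (m - 4) + 3 by omega, pow_add]; simp
  have hpow3 : 2 ^ (m - 3) = 2 ^ (m - 4) * 2 := by
    rw [show m - 3 = (m - 4) + 1 by omega, pow_add]; simp
  have hpos : 0 < 2 ^ (m - 4) := pow_pos (by norm_num) _
  have hcardM : ∀ M ∈ Mx 2 (⊥ : Subgroup P), Nat.card (commutator M) * (commutator M).index = 2 ^ (m - 1) := by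
    intro M hM
    rw [(commutator M).card_mul_index, card_of_Mx hm (by omega) hM]
  have hDcard : Nat.card D * D.index = 2 ^ m := by rw [D.card_mul_index, hm]
  have hD8 := index_eight hP hnc hcl
  have hM0c := hcardM M0 hM0
  rw [hM04] at hM0c
  have hD3 : Nat.card D = 2 ^ (m - 3) := by
    have h1 : Nat.card (commutator M0) ≤ Nat.card D := by
      rw [← hcardmap]; exact Nat.le_of_dvd Nat.card_pos (card_dvd_of_le (hle M0))
    have h2 : Nat.card D * 8 ≤ 2 ^ m := by
      rw [← hDcard]; exact Nat.mul_le_mul_left _ hD8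
    omega
  have hiff : ∀ M ∈ Mx 2 (⊥ : Subgroup P), (commutator M).index = 4 ↔ (commutator M).map M.subtype = D := by
    intro M hM
    have h1 := hcardM M hM
    constructor
    · intro h
      apply Subgroup.eq_of_le_of_card_ge (hle M)
      rw [hcardmap, hD3]
      rw [h] at h1
      omega
    · intro h
      have h2 := hcardmap M
      rw [h, hD3] at h2
      rw [← h2, hpow1, hpow3, mul_assoc] at h1
      have := Nat.eq_of_mul_eq_mul_left hpos h1
      omega
  -- `D` is cyclic
  have hDcyc : IsCyclic D := by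
    have h5 : Nat.card M0 = 2 ^ (m - 1) := card_of_Mx hm (by omega) hM0
    obtain ⟨C, hCc, hCi⟩ := H2.MaxClass.exists_cyclic (m - 1) M0 (by omega) h5
      (H2.MaxClass.max_of_klein (m - 1) M0 (by omega) h5 hM04)
    have h6 : commutator M0 ≤ C := commutator_le_coatom (IsPGroup.of_card h5) (isCoatom_of_index (p := 2) hCi)
    haveI := hCc
    have h7 : IsCyclic (commutator M0) := isCyclic_of_injective (Subgroup.inclusion h6) (Subgroup.inclusion_injective h6)
    have h8 := (hiff M0 hM0).mp hM04
    rw [← h8]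
    exact (Subgroup.equivMapOfInjective (commutator M0) M0.subtype M0.subtype_injective).isCyclic.mp h7
  obtain ⟨d, hd⟩ := (Subgroup.isCyclic_iff_exists_zpowers_eq_top D).mp hDcyc
  have hdo : orderOf d = 2 ^ (m - 3) := by rw [← Nat.card_zpowers, hd, hD3]
  set L := zpowers (d ^ 2) with hL
  have hLcard : Nat.card L = 2 ^ (m - 4) := by
    rw [hL, Nat.card_zpowers, orderOf_pow, hdo]
    have h9 : Nat.gcd (2 ^ (m - 3)) 2 = 2 := by
      apply Nat.gcd_eq_right
      exact dvd_pow_self 2 (by omega)
    rw [h9]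
    omega
  have hLi : L.index = 16 := by
    have h1 := L.card_mul_index
    rw [hLcard, hm, hpow] at h1
    exact Nat.eq_of_mul_eq_mul_left hpos h1
  have hDn : D.Normal := by rw [hD]; infer_instance
  have hLmem : ∀ i : ℤ, d ^ (2 * i) ∈ L := by
    intro i
    refine ⟨i, ?_⟩
    show (d ^ 2) ^ i = d ^ (2 * i)
    rw [zpow_mul]; norm_cast
  have hLn : L.Normal := by
    constructor
    rintro _ ⟨i, rfl⟩ g
    have h1 : g * d * g⁻¹ ∈ D := hDn.conj_mem d (by rw [← hd]; exact mem_zpowers d) g
    rw [← hd] at h1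
    obtain ⟨j, hj⟩ := h1
    have hj' : d ^ j = g * d * g⁻¹ := hj
    show g * (d ^ 2) ^ i * g⁻¹ ∈ L
    have h2 : g * (d ^ 2) ^ i * g⁻¹ = d ^ (2 * (j * i)) := by
      have h3 : (d ^ 2) ^ i = d ^ (2 * i) := by rw [zpow_mul]; norm_cast
      rw [h3, ← conj_zpow, ← hj', ← zpow_mul]
      congr 1; ring
    rw [h2]; exact hLmem _
  have hdL : d ∉ L := by
    intro h
    have h1 : D ≤ L := by rw [← hd, zpowers_le]; exact h
    have h2 := Nat.le_of_dvd Nat.card_pos (card_dvd_of_le h1)
    rw [hD3, hLcard] at h2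
    omega
  -- elements of `D` outside `L` generate `D`
  have hgen : ∀ e ∈ D, e ∉ L → D ≤ zpowers e := by
    intro e heD heL
    rw [← hd] at heD
    obtain ⟨j, hj⟩ := heD
    have hj' : d ^ j = e := hj
    rcases Int.even_or_odd' j with ⟨i, hi | hi⟩
    · exfalso; apply heL; rw [← hj', hi]; exact hLmem i
    · rw [← hd, zpowers_le]
      have hc : IsCoprime j ((2 : ℤ) ^ (m - 3)) := by
        apply IsCoprime.pow_right
        exact ⟨1, -i, by rw [hi]; ring⟩
      obtain ⟨a, b, hab⟩ := hc
      refine ⟨a, ?_⟩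
      show e ^ a = d
      rw [← hj', ← zpow_mul]
      have h1 : d ^ (j * a) = d ^ (1 : ℤ) := by
        rw [zpow_eq_zpow_iff_modEq, hdo, Int.modEq_iff_dvd]
        push_cast
        exact ⟨b, by linarith⟩
      rw [h1, zpow_one]
  -- the quotient by `L`
  have hQ : Nat.card (P ⧸ L) = 16 := by rw [← index_eq_card, hLi]
  have hmk : ∀ a b : P, ⁅(QuotientGroup.mk' L a), (QuotientGroup.mk' L b)⁆ = QuotientGroup.mk' L ⁅a, b⁆ := by
    intro a b; rw [map_commutatorElement]
  have hmk1 : ∀ a : P, QuotientGroup.mk' L a = 1 ↔ a ∈ L := fun a => QuotientGroup.eq_one_iff a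
  have hcommD : ∀ a b : P, ⁅a, b⁆ ∈ D := fun a b => commutator_mem_commutator (mem_top _) (mem_top _)
  have hz : ∀ a b : P ⧸ L, ⁅a, b⁆ = 1 ∨ ⁅a, b⁆ = QuotientGroup.mk' L d := by
    intro a b
    obtain ⟨a, rfl⟩ := QuotientGroup.mk'_surjective L a
    obtain ⟨b, rfl⟩ := QuotientGroup.mk'_surjective L b
    rw [hmk]
    have h1 := hcommD a b
    rw [← hd] at h1
    obtain ⟨j, hj⟩ := h1
    have hj' : d ^ j = ⁅a, b⁆ := hj
    rcases Int.even_or_odd' j with ⟨i, hi | hi⟩
    · left; rw [← hj', hi, hmk1]; exact hLmem i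
    · right
      rw [← hj', hi, zpow_add, zpow_one, map_mul, (hmk1 _).mpr (hLmem i), one_mul]
  have hnab : ¬ ∀ a b : P ⧸ L, a * b = b * a := by
    intro h
    apply hdL
    have h1 : D ≤ L := by
      rw [hD, commutator_def, commutator_le]
      intro a _ b _
      rw [← hmk1, ← hmk, commutatorElement_eq_one_iff_mul_comm]
      exact h _ _
    apply h1
    rw [← hd]; exact mem_zpowers d
  have hZi := center_index_four hQ _ hz hnab
  set Z := (center (P ⧸ L)).comap (QuotientGroup.mk' L) with hZ
  have hZ4 : Z.index = 4 := by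
    rw [hZ, index_comap_of_surjective _ (QuotientGroup.mk'_surjective L), hZi]
  have hZmem : ∀ c ∈ Z, ∀ a : P, ⁅a, c⁆ ∈ L := by
    intro c hc a
    rw [← hmk1, ← hmk, commutatorElement_eq_one_iff_mul_comm]
    exact mem_center_iff.mp hc _
  -- the criterion
  have hcrit : ∀ M ∈ Mx 2 (⊥ : Subgroup P), (¬ (commutator M).index = 4) ↔ Z ≤ M := by
    intro M hM
    have hMi := (mem_Mx.mp hM).1
    rw [hiff M hM]
    constructor
    · intro h
      -- all commutators of M are in L
      have h1 : ∀ a ∈ M, ∀ b ∈ M, ⁅a, b⁆ ∈ L := by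
        intro a ha b hb
        by_contra hcon
        apply h
        apply le_antisymm (hle M)
        refine (hgen _ (hcommD a b) hcon).trans ?_
        rw [zpowers_le]
        exact ⟨⁅(⟨a, ha⟩ : M), (⟨b, hb⟩ : M)⁆, commutator_mem_commutator (mem_top _) (mem_top _), rfl⟩
      by_contra hZM
      obtain ⟨c, hcZ, hcM⟩ := SetLike.not_le_iff_exists.mp hZM
      apply hnab
      have h2 : ∀ a : P ⧸ L, ∃ a' ∈ M, ∃ c' ∈ center (P ⧸ L), a = QuotientGroup.mk' L a' * c' := by
        intro a
        obtain ⟨a, rfl⟩ := QuotientGroup.mk'_surjective L a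
        by_cases ha : a ∈ M
        · exact ⟨a, ha, 1, one_mem _, by rw [mul_one]⟩
        · refine ⟨a * c, H2.MaxClass.mul_mem_of_not_mem hMi ha hcM, (QuotientGroup.mk' L c)⁻¹,
            inv_mem hcZ, ?_⟩
          rw [map_mul, mul_inv_cancel_right]
      intro a b
      obtain ⟨a', ha', c1, hc1, rfl⟩ := h2 a
      obtain ⟨b', hb', c2, hc2, rfl⟩ := h2 b
      have h3 : QuotientGroup.mk' L a' * QuotientGroup.mk' L b' = QuotientGroup.mk' L b' * QuotientGroup.mk' L a' := by
        rw [← commutatorElement_eq_one_iff_mul_comm, hmk, hmk1]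
        exact h1 a' ha' b' hb'
      have hc1' := mem_center_iff.mp hc1
      have hc2' := mem_center_iff.mp hc2
      calc QuotientGroup.mk' L a' * c1 * (QuotientGroup.mk' L b' * c2)
          = QuotientGroup.mk' L a' * (c1 * QuotientGroup.mk' L b') * c2 := by group
        _ = QuotientGroup.mk' L a' * (QuotientGroup.mk' L b' * c1) * c2 := by rw [hc1']
        _ = (QuotientGroup.mk' L a' * QuotientGroup.mk' L b') * (c1 * c2) := by group
        _ = (QuotientGroup.mk' L b' * QuotientGroup.mk' L a') * (c2 * c1) := by rw [h3, hc2' c1]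
        _ = QuotientGroup.mk' L b' * (QuotientGroup.mk' L a' * c2) * c1 := by group
        _ = QuotientGroup.mk' L b' * (c2 * QuotientGroup.mk' L a') * c1 := by rw [hc2']
        _ = _ := by group
    · intro hZM h
      have h1 : ∀ a ∈ M, ∀ b ∈ M, ⁅a, b⁆ ∈ L := by
        intro a ha b hb
        by_cases haZ : a ∈ Z
        · have h2 := hZmem a haZ b
          have h3 := inv_mem h2
          rwa [commutatorElement_inv] at h3
        by_cases hbZ : b ∈ Z
        · exact hZmem b hbZ a
        -- `a⁻¹ b ∈ Z`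
        have h2 : (Z.subgroupOf M).index = 2 := by
          have h3 := relIndex_mul_index hZM
          rw [hMi, hZ4] at h3
          have : Z.relIndex M = 2 := by omega
          exact this
        have h3 : a⁻¹ * b ∈ Z := by
          have h4 : (⟨a, ha⟩ : M)⁻¹ * ⟨b, hb⟩ ∈ Z.subgroupOf M := by
            apply H2.MaxClass.mul_mem_of_not_mem h2
            · rw [inv_mem_iff]; exact haZ
            · exact hbZ
          exact h4
        rw [← hmk1, ← hmk, commutatorElement_eq_one_iff_mul_comm]
        have h4 := mem_center_iff.mp h3 (QuotientGroup.mk' L a)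
        have h5 : QuotientGroup.mk' L b = QuotientGroup.mk' L a * QuotientGroup.mk' L (a⁻¹ * b) := by
          rw [← map_mul, mul_inv_cancel_left]
        rw [h5]
        have h4' : QuotientGroup.mk' L a * QuotientGroup.mk' L (a⁻¹ * b) =
          QuotientGroup.mk' L (a⁻¹ * b) * QuotientGroup.mk' L a := h4
        rw [mul_assoc, ← h4']
      apply hdL
      have h2 : D ≤ L := by
        rw [← h, map_le_iff_le_comap, commutator_def, commutator_le]
        intro a _ b _
        exact h1 a a.2 b b.2
      apply h2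
      rw [← hd]; exact mem_zpowers d
  have hcompl : (Mx 2 (⊥ : Subgroup P)).filter (fun M : Subgroup P => ¬ (commutator M).index = 4) = Mx 2 Z := by
    ext M
    rw [Finset.mem_filter, mem_Mx (H := Z)]
    constructor
    · rintro ⟨hM, h⟩
      exact ⟨(mem_Mx.mp hM).1, (hcrit M hM).mp h⟩
    · rintro ⟨h1, h2⟩
      have hM : M ∈ Mx 2 (⊥ : Subgroup P) := mem_Mx.mpr ⟨h1, bot_le⟩
      exact ⟨hM, (hcrit M hM).mpr h2⟩
  have hsum := Finset.card_filter_add_card_filter_not (s := Mx 2 (⊥ : Subgroup P))
    (fun M : Subgroup P => (commutator M).index = 4)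
  rw [hcompl] at hsum
  have h1 := mx_card hP Z
  obtain ⟨e, he⟩ := card_AH (p := 2) Z
  rw [he] at h1
  have h2 : (Mx 2 Z).card ≠ 0 := by
    have hZt : Z ≠ ⊤ := by
      intro h; rw [h, index_top] at hZ4; norm_num at hZ4
    obtain ⟨K, hK, -, hKi⟩ := exists_index_p_of_ne_top hP hZt
    rw [Finset.card_ne_zero]
    exact ⟨K, mem_Mx.mpr ⟨hKi, hK⟩⟩
  have h3 : e ≠ 0 := by rintro rfl; norm_num at h1; exact h2 (by simpa using h1)
  have h4 : 2 ∣ 2 ^ e := dvd_pow_self 2 h3
  have h5 : (Mx 2 (⊥ : Subgroup P)).card % 4 = 3 := mx_bot hP hnc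
  norm_num at h1
  omega

end

theorem kulakoff_two (m : ℕ) : ∀ (P : Type u) [Group P] [Finite P], Nat.card P = 2 ^ m → 3 ≤ m →
    ¬ IsCyclic P → (commutator P).index ≠ 4 →
      ∀ k, 1 ≤ k → k < m → (Sk 2 k (⊤ : Subgroup P)).card ≡ 3 [MOD 4] := by
  classical
  induction m with
  | zero => intro P _ _ _ h; omega
  | succ m ih =>
    intro P _ _ hP hm3 hnc hcl k hk1 hk2
    haveI : Fact (Nat.Prime 2) := ⟨Nat.prime_two⟩
    have hpg : IsPGroup 2 P := IsPGroup.of_card hP
    have h2 : (Mx 2 (⊥ : Subgroup P)).card ≡ 3 [MOD 4] := mx_bot hpg hnc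
    by_cases hkm : k = m
    · subst hkm
      have := Sk_coatom (P := P) hP (by omega)
      rw [Nat.add_sub_cancel] at this
      rw [this]
      exact h2
    have hk : k + 2 ≤ m + 1 := by omega
    have h1 : ∑ M ∈ Mx 2 (⊥ : Subgroup P), (Sk 2 k M).card ≡ (Sk 2 k (⊤ : Subgroup P)).card + 2 [MOD 4] :=
      hall hpg hP hnc hk
    have hcM : ∀ M ∈ Mx 2 (⊥ : Subgroup P), Nat.card M = 2 ^ m := by
      intro M hM
      rw [card_of_Mx hP (by omega) hM]; simp
    have hterm1 : ∀ M ∈ Mx 2 (⊥ : Subgroup P), IsCyclic M → (Sk 2 k M).card = 1 := by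
      intro M hM hMc
      rw [card_Sk]
      apply cyc_one hMc
      rw [hcM M hM]
      exact pow_dvd_pow 2 (by omega)
    -- parity of the number of cyclic maximal subgroups
    have hcyc : 2 ∣ ((Mx 2 (⊥ : Subgroup P)).filter (fun M : Subgroup P => IsCyclic M)).card := by
      rcases cyc_two hP hm3 hnc hcl with hA | ⟨K, hK, hA⟩
      · rw [Finset.filter_false_of_mem (fun M hM => hA M hM)]; simp
      · have e1 : (Mx 2 (⊥ : Subgroup P)).filter (fun M : Subgroup P => IsCyclic M) = (Mx 2 (⊥ : Subgroup P)).erase K := by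
          ext M
          rw [Finset.mem_filter, Finset.mem_erase]
          constructor
          · rintro ⟨hM, h⟩; exact ⟨(hA M hM).mp h, hM⟩
          · rintro ⟨h, hM⟩; exact ⟨hM, (hA M hM).mpr h⟩
        rw [e1, Finset.card_erase_of_mem hK]
        have e2 : (Mx 2 (⊥ : Subgroup P)).card % 4 = 3 := h2
        omega
    have h3 : ∑ M ∈ Mx 2 (⊥ : Subgroup P), (Sk 2 k M).card ≡ 1 [MOD 4] := by
      by_cases hkn : k + 1 = m
      · have h4 := sum_par (Mx 2 (⊥ : Subgroup P)) (fun M => (Sk 2 k M).card) (fun M => IsCyclic M) h2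
          (fun M hM hMc => by rw [hterm1 M hM hMc]) (fun M hM hMc => by
            rw [card_Sk, ← card_Sk_top]
            have h5 : Nat.card M = 2 ^ m := hcM M hM
            have h6 := Sk_coatom h5 (by omega)
            rw [show m - 1 = k by omega] at h6
            rw [h6]
            exact mx_bot (IsPGroup.of_card h5) hMc)
        have h6 : (∑ M ∈ Mx 2 (⊥ : Subgroup P), (Sk 2 k M).card +
          2 * ((Mx 2 (⊥ : Subgroup P)).filter (fun M : Subgroup P => IsCyclic M)).card) % 4 = 1 := h4
        show (∑ M ∈ Mx 2 (⊥ : Subgroup P), (Sk 2 k M).card) % 4 = 1 % 4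
        omega
      · have hm4 : 4 ≤ m + 1 := by omega
        have ht := t_even hP hm4 hnc hcl
        have h4 := sum_par (Mx 2 (⊥ : Subgroup P)) (fun M => (Sk 2 k M).card)
          (fun M => IsCyclic M ∨ (commutator M).index = 4) h2
          (fun M hM hMc => by
            rcases hMc with h | h
            · rw [hterm1 M hM h]
            · rw [card_Sk, ← card_Sk_top]
              exact maxcl m M (hcM M hM) (by omega) h k hk1 (by omega)) (fun M hM hMc => by
            push Not at hMc
            rw [card_Sk, ← card_Sk_top]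
            exact ih M (hcM M hM) (by omega) hMc.1 hMc.2 k hk1 (by omega))
        have h5 : ((Mx 2 (⊥ : Subgroup P)).filter (fun M : Subgroup P => IsCyclic M ∨ (commutator M).index = 4)).card
          = ((Mx 2 (⊥ : Subgroup P)).filter (fun M : Subgroup P => IsCyclic M)).card +
            ((Mx 2 (⊥ : Subgroup P)).filter (fun M : Subgroup P => (commutator M).index = 4)).card := by
          rw [Finset.filter_or, Finset.card_union_of_disjoint]
          rw [Finset.disjoint_filter]
          intro M hM hMc hM4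
          have := nab_of_index (hcM M hM) (by omega) hM4
          exact this (letI := IsCyclic.commGroup (α := M); fun a b => mul_comm a b)
        have h6 : (∑ M ∈ Mx 2 (⊥ : Subgroup P), (Sk 2 k M).card +
          2 * ((Mx 2 (⊥ : Subgroup P)).filter (fun M : Subgroup P => IsCyclic M ∨ (commutator M).index = 4)).card) % 4 = 1 := h4
        show (∑ M ∈ Mx 2 (⊥ : Subgroup P), (Sk 2 k M).card) % 4 = 1 % 4
        omega
    have h4 : (Sk 2 k (⊤ : Subgroup P)).card + 2 ≡ 3 + 2 [MOD 4] := (h1.symm.trans h3).trans (by decide)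
    exact Nat.ModEq.add_right_cancel' 2 h4

end Cfsg.Agent.H23.Kula
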