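import Mathlib
import Cfsg.Agent.H23_N22
import Cfsg.Agent.H21_Syl15b

/-!
"No finite group has exactly 22 Sylow 3-subgroups": the case of Sylow subgroups of order 3.
-/

set_option autoImplicit false
set_option linter.all false

open MulAction Subgroup
open scoped Pointwise

namespace Cfsg.Agent.H23.N22

variable {G : Type*} [Group G] [Finite G] [hp3 : Fact (Nat.Prime 3)]

/-- fixed points -/
def F (y : G) : Set (Sylow 3 G) := {Q | y • Q = Q}

/-- transitivity of the centralizer on the fixed points -/
theorem card_F_dvd {x : G} (hne : (F x).Nonempty) (h : ∀ Q ∈ F x, ∀ z ∈ Q, x * z = z * x) :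
    (F x).ncard ∣ Nat.card (centralizer ({x} : Set G)) := by
  obtain ⟨Q0, hQ0⟩ := hne
  set C := centralizer ({x} : Set G) with hC
  have hle : ∀ Q ∈ F x, (Q : Subgroup G) ≤ C := by
    intro Q hQ z hz
    rw [hC, mem_centralizer_singleton_iff]
    exact (h Q hQ z hz).symm
  have h1 : F x = orbit C Q0 := by
    ext Q
    constructor
    · intro hQ
      obtain ⟨c, hc⟩ := MulAction.exists_smul_eq C (Q0.subtype (hle Q0 hQ0)) (Q.subtype (hle Q hQ))
      rw [Sylow.smul_subtype] at hc
      exact ⟨c, Sylow.subtype_injective hc⟩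
    · rintro ⟨c, rfl⟩
      have hc : (c : G) * x = x * c := mem_centralizer_singleton_iff.1 c.2
      show x • ((c : G) • Q0) = (c : G) • Q0
      have hQ0' : x • Q0 = Q0 := hQ0
      rw [← mul_smul, ← hc, mul_smul, hQ0']
  rw [h1, ← MulAction.index_stabilizer]
  exact Subgroup.index_dvd_card _

section c22

variable (h22 : Nat.card (Sylow 3 G) = 22)

include h22

theorem exists_moved : ∃ (x : G) (P : Sylow 3 G), x • P ≠ P := by
  by_contra hcon
  push Not at hcon
  obtain ⟨P⟩ : Nonempty (Sylow 3 G) := inferInstance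
  have : Subsingleton (Sylow 3 G) := by
    refine ⟨fun A B => ?_⟩
    obtain ⟨x, rfl⟩ := MulAction.exists_smul_eq G A B
    exact (hcon x A).symm
  rw [Nat.card_unique] at h22
  omega

theorem nonabelian : ∃ a b : G, a * b ≠ b * a := by
  by_contra hcon
  push Not at hcon
  obtain ⟨x, P, hx⟩ := exists_moved h22
  apply hx
  apply Sylow.ext
  ext y
  have := mem_smul (x := x) (y := y) (P := P)
  rw [hcon x⁻¹ y, mul_assoc, inv_mul_cancel, mul_one] at this
  exact this

theorem F_card_le (y : G) : (F y).ncard ≤ 22 := by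
  rw [← h22, ← Set.ncard_univ]
  exact Set.ncard_le_ncard (Set.subset_univ _) (Set.toFinite _)

variable [IsSimpleGroup G]

theorem F_ne {y : G} (hy : y ≠ 1) : (F y).ncard ≠ 22 := by
  intro h
  have h1 : F y = Set.univ := by
    apply Set.eq_of_subset_of_ncard_le (Set.subset_univ _) _ (Set.toFinite _)
    rw [Set.ncard_univ, h22, h]
  have h2 : y ∈ (toPermHom G (Sylow 3 G)).ker := by
    rw [MonoidHom.mem_ker]
    ext1 Q
    have : Q ∈ F y := by rw [h1]; trivial
    exact this
  rcases IsSimpleGroup.eq_bot_or_eq_top_of_normal (toPermHom G (Sylow 3 G)).ker inferInstance with h3 | h3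
  · rw [h3, mem_bot] at h2
    exact hy h2
  · obtain ⟨x, P, hx⟩ := exists_moved h22
    have : x ∈ (toPermHom G (Sylow 3 G)).ker := by rw [h3]; trivial
    rw [MonoidHom.mem_ker] at this
    exact hx (congrArg (fun f : Equiv.Perm (Sylow 3 G) => f P) this)

omit h22 [IsSimpleGroup G] in
theorem F_mod3 {y : G} {P : Sylow 3 G} (hy : ∀ z ∈ P, y * z = z * y) : (F y).ncard ≡ 1 [MOD 3] := by
  have hyP : y • P = P := by
    apply Sylow.smul_eq_iff_mem_normalizer.2
    apply Subgroup.centralizer_le_normalizer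
    rw [mem_centralizer_iff]
    intro z hz
    exact (hy z hz).symm
  have h := ncard_modEq P.2 (F y) (by
    intro x hx Q hQ
    show y • x • Q = x • Q
    have hQ' : y • Q = Q := hQ
    rw [← mul_smul, hy x hx, mul_smul, hQ'])
  have h2 : {ω : Sylow 3 G | ω ∈ F y ∧ ∀ x ∈ (P : Subgroup G), x • ω = ω} = {P} := by
    ext Q
    rw [Set.mem_singleton_iff]
    constructor
    · rintro ⟨_, h2⟩
      symm
      rw [← le_iff]
      intro x hx
      exact mem_of_smul hx (h2 x hx)
    · rintro rfl
      exact ⟨hyP, fun x hx => smul_of_mem hx⟩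
  rwa [h2, Set.ncard_singleton] at h

omit [IsSimpleGroup G] in
theorem F_modq {y : G} {q : ℕ} [hq : Fact q.Prime] (hy : orderOf y = q) : (F y).ncard ≡ 22 [MOD q] := by
  have h1 : IsPGroup q (zpowers y) := Cfsg.Agent.H24.Tools.isPGroup_zpowers (k := 1) (by rw [hy, pow_one])
  have h := ncard_modEq h1 (Set.univ : Set (Sylow 3 G)) (fun _ _ _ _ => trivial)
  have h2 : {ω : Sylow 3 G | ω ∈ Set.univ ∧ ∀ x ∈ zpowers y, x • ω = ω} = F y := by
    ext Q
    constructor
    · rintro ⟨_, h2⟩
      exact h2 y (mem_zpowers y)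
    · intro hQ
      refine ⟨trivial, ?_⟩
      intro x hx
      have h3 : zpowers y ≤ stabilizer G Q := by
        rw [zpowers_le]; exact hQ
      exact h3 hx
  rw [h2, Set.ncard_univ, h22] at h
  exact h.symm

omit h22 [IsSimpleGroup G] in
theorem conj_cases {P : Sylow 3 G} (hc : Nat.card P = 3) {y : G} (hy : y • P = P) {z : G} (hz : z ∈ P) :
    (y * z * y⁻¹ = z ∨ y * z * y⁻¹ = z ^ 2) ∧ z ^ 3 = 1 := by
  have hz3 : z ^ 3 = 1 := by
    have := pow_card_eq_one' (x := (⟨z, hz⟩ : (P : Subgroup G)))
    have hc' : Nat.card (P : Subgroup G) = 3 := hc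
    rw [hc'] at this
    exact congrArg Subtype.val this
  refine ⟨?_, hz3⟩
  by_cases hz1 : z = 1
  · left; rw [hz1]; group
  have ho : orderOf z = 3 := orderOf_eq_prime hz3 hz1
  have h1 : zpowers z = (P : Subgroup G) := by
    apply Subgroup.eq_of_le_of_card_ge
    · rw [zpowers_le]; exact hz
    · rw [Nat.card_zpowers, ho]; exact hc.le
  have h2 : y * z * y⁻¹ ∈ P := by
    have : y * z * y⁻¹ ∈ (y • P : Sylow 3 G) := by
      rw [mem_smul]
      have e : y⁻¹ * (y * z * y⁻¹) * y = z := by group
      rw [e]; exact hz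
    rwa [hy] at this
  have h3 : y * z * y⁻¹ ∈ zpowers z := by rw [h1]; exact h2
  classical
  rw [mem_zpowers_iff_mem_range_orderOf, ho] at h3
  rw [Finset.mem_image] at h3
  obtain ⟨k, hk, hk2⟩ := h3
  rw [Finset.mem_range] at hk
  interval_cases k
  · exfalso
    rw [pow_zero] at hk2
    apply hz1
    have e : z = y⁻¹ * (y * z * y⁻¹) * y := by group
    rw [e, ← hk2]; group
  · left; rw [← hk2, pow_one]
  · right; exact hk2.symm

omit h22 [IsSimpleGroup G] in
/-- elements of odd order normalising `P` centralise it -/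
theorem centralizes_of_odd {P : Sylow 3 G} (hc : Nat.card P = 3) {y : G} (hy : y • P = P)
    (ho : (orderOf y).Coprime 2) : ∀ z ∈ P, y * z = z * y := by
  have h1 : y ^ 2 ∈ centralizer ((P : Subgroup G) : Set G) := by
    rw [mem_centralizer_iff]
    intro z hz
    obtain ⟨h1, h2⟩ := conj_cases hc hy hz
    have h3 : y ^ 2 * z * (y ^ 2)⁻¹ = z := by
      have e : y ^ 2 * z * (y ^ 2)⁻¹ = y * (y * z * y⁻¹) * y⁻¹ := by rw [pow_two]; group
      rw [e]
      rcases h1 with h1 | h1
      · rw [h1, h1]
      · rw [h1]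
        have e2 : y * z ^ 2 * y⁻¹ = (y * z * y⁻¹) ^ 2 := by
          rw [pow_two, pow_two]; group
        rw [e2, h1, ← pow_mul]
        have : z ^ (2 * 2) = z ^ 3 * z := by rw [← pow_succ]
        rw [this, h2, one_mul]
    have h4 : y ^ 2 * z = z * y ^ 2 := by
      calc y ^ 2 * z = (y ^ 2 * z * (y ^ 2)⁻¹) * y ^ 2 := by group
        _ = z * y ^ 2 := by rw [h3]
    exact h4.symm
  have h2 := Cfsg.Agent.H24.Tools.coprime_pow_mem h1 ho
  intro z hz
  exact (mem_centralizer_iff.1 h2 z hz).symm

variable (hc : ∀ P : Sylow 3 G, Nat.card P = 3)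

include hc

theorem no_five (x : G) (hx : orderOf x = 5) : False := by
  haveI : Fact (Nat.Prime 5) := ⟨Nat.prime_five⟩
  haveI : Fact (Nat.Prime 7) := ⟨by norm_num⟩
  have hx1 : x ≠ 1 := by
    intro h; rw [h, orderOf_one] at hx; omega
  have h1 := F_modq h22 hx
  have h2 := F_card_le h22 x
  have h3 := F_ne h22 hx1
  have hcen : ∀ Q ∈ F x, ∀ z ∈ Q, x * z = z * x := fun Q hQ =>
    centralizes_of_odd (hc Q) hQ (by rw [hx]; norm_num)
  have hne : (F x).Nonempty := by
    rw [← Set.ncard_pos (Set.toFinite _)]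
    unfold Nat.ModEq at h1
    omega
  obtain ⟨P, hP⟩ := hne
  have h4 := F_mod3 (hcen P hP)
  have h5 : (F x).ncard = 7 := by
    unfold Nat.ModEq at h1 h4
    omega
  have h6 := card_F_dvd ⟨P, hP⟩ hcen
  rw [h5] at h6
  obtain ⟨y, hy⟩ := exists_prime_orderOf_dvd_card' 7 h6
  have hyo : orderOf (y : G) = 7 := by rw [Subgroup.orderOf_coe]; exact hy
  have hy1 : (y : G) ≠ 1 := by
    intro h; rw [h, orderOf_one] at hyo; omega
  have hyx : (y : G) * x = x * y := mem_centralizer_singleton_iff.1 y.2
  have g1 := F_modq h22 hyo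
  have g2 := F_card_le h22 (y : G)
  have g3 := F_ne h22 hy1
  have hne' : (F (y : G)).Nonempty := by
    rw [← Set.ncard_pos (Set.toFinite _)]
    unfold Nat.ModEq at g1
    omega
  obtain ⟨P', hP'⟩ := hne'
  have g4 := F_mod3 (centralizes_of_odd (hc P') hP' (by rw [hyo]; norm_num))
  have g5 : (F (y : G)).ncard = 1 := by
    unfold Nat.ModEq at g1 g4
    omega
  obtain ⟨R, hR⟩ := Set.ncard_eq_one.1 g5
  have hxR : x • R = R := by
    have hRy : R ∈ F (y : G) := by rw [hR]; rfl
    have : x • R ∈ F (y : G) := by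
      show (y : G) • x • R = x • R
      have hRy' : (y : G) • R = R := hRy
      rw [← mul_smul, hyx, mul_smul, hRy']
    rw [hR] at this
    exact this
  have k1 : IsPGroup 7 (zpowers (y : G)) := Cfsg.Agent.H24.Tools.isPGroup_zpowers (k := 1) (by rw [hyo, pow_one])
  have k2 := ncard_modEq k1 (F x) (by
    intro w hw Q hQ
    obtain ⟨n, rfl⟩ := mem_zpowers_iff.1 hw
    show x • ((y : G) ^ n) • Q = ((y : G) ^ n) • Q
    have hQ' : x • Q = Q := hQ
    have e : x * (y : G) ^ n = (y : G) ^ n * x := (Commute.zpow_left (hyx : Commute (y : G) x) n).symm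
    rw [← mul_smul, e, mul_smul, hQ'])
  have k3 : {ω : Sylow 3 G | ω ∈ F x ∧ ∀ w ∈ zpowers (y : G), w • ω = ω} = {R} := by
    ext Q
    rw [Set.mem_singleton_iff]
    constructor
    · rintro ⟨_, h2⟩
      have : Q ∈ F (y : G) := h2 y (mem_zpowers _)
      rw [hR] at this
      exact this
    · rintro rfl
      refine ⟨hxR, ?_⟩
      intro w hw
      have h3 : zpowers (y : G) ≤ stabilizer G Q := by
        rw [zpowers_le]
        have : Q ∈ F (y : G) := by rw [hR]; rfl
        exact this
      exact h3 hw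
  rw [k3, h5, Set.ncard_singleton] at k2
  revert k2
  decide

/-- no involution centralises a Sylow 3-subgroup -/
theorem no_two (k : G) (hk : orderOf k = 2) (P : Sylow 3 G) (hkP : ∀ z ∈ P, k * z = z * k) : False := by
  haveI : Fact (Nat.Prime 5) := ⟨Nat.prime_five⟩
  have hk1 : k ≠ 1 := by
    intro h; rw [h, orderOf_one] at hk; omega
  have hk2 : k ^ 2 = 1 := by
    have := pow_orderOf_eq_one k
    rwa [hk] at this
  have h1 := sign_mod4 (Ω := Sylow 3 G) (nonabelian h22) k hk2
  have h1' : 22 ≡ (F k).ncard [MOD 4] := by rw [← h22]; exact h1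
  have h2 := F_card_le h22 k
  have h3 := F_ne h22 hk1
  have h4 := F_mod3 hkP
  have h5 : (F k).ncard = 10 := by
    unfold Nat.ModEq at h1' h4
    omega
  have hne : (F k).Nonempty := by
    rw [← Set.ncard_pos (Set.toFinite _)]
    omega
  have hcen : ∀ Q ∈ F k, ∀ z ∈ Q, k * z = z * k := by
    intro Q hQ z hz
    by_contra hne
    obtain ⟨c1, c2⟩ := conj_cases (hc Q) hQ hz
    have c3 : k * z * k⁻¹ = z ^ 2 := by
      rcases c1 with c1 | c1
      · exfalso
        apply hne
        calc k * z = (k * z * k⁻¹) * k := by group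
          _ = z * k := by rw [c1]
      · exact c1
    have hz1 : z ≠ 1 := by rintro rfl; exact hne (by rw [mul_one, one_mul])
    have hkz : k * z = z ^ 2 * k := by
      calc k * z = (k * z * k⁻¹) * k := by group
        _ = z ^ 2 * k := by rw [c3]
    have hkz2 : k * z ^ 2 = z * k := by
      calc k * z ^ 2 = (k * z) * z := by rw [pow_two]; group
        _ = z ^ 2 * (k * z) := by rw [hkz]; simp only [mul_assoc]; rw [hkz]
        _ = z ^ 3 * z * k := by rw [hkz]; group
        _ = z * k := by rw [c2, one_mul]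
    -- fixed points of z
    have hfix : ∀ R : Sylow 3 G, z • R = R → R = Q := by
      intro R hR
      have hzR : z ∈ R := mem_of_smul hz hR
      have ho : orderOf z = 3 := orderOf_eq_prime c2 hz1
      have e1 : ∀ S : Sylow 3 G, z ∈ S → zpowers z = (S : Subgroup G) := by
        intro S hS
        apply Subgroup.eq_of_le_of_card_ge
        · rw [zpowers_le]; exact hS
        · rw [Nat.card_zpowers, ho]; exact (hc S).le
      apply Sylow.ext
      rw [← e1 R hzR, ← e1 Q hz]
    set A : Set (Sylow 3 G) := F k \ {Q} with hA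
    have hAc : A.ncard = 9 := by
      have : A.ncard + 1 = (F k).ncard := Set.ncard_diff_singleton_add_one hQ (Set.toFinite _)
      omega
    have hzA : ∀ R ∈ A, z • R ∉ F k := by
      rintro R ⟨hR, hRQ⟩ hR2
      apply hRQ
      apply hfix
      have hR' : k • R = R := hR
      have hR2' : k • z • R = z • R := hR2
      rw [← mul_smul, hkz, mul_smul, hR', pow_two, mul_smul] at hR2'
      exact MulAction.injective z hR2'
    have hzzA : ∀ R ∈ A, z ^ 2 • R ∉ F k := by
      rintro R ⟨hR, hRQ⟩ hR2
      apply hRQ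
      apply hfix
      have hR' : k • R = R := hR
      have hR2' : k • z ^ 2 • R = z ^ 2 • R := hR2
      rw [← mul_smul, hkz2, mul_smul, hR', pow_two, mul_smul] at hR2'
      exact (MulAction.injective z hR2').symm
    have hne3 : ∀ R : Sylow 3 G, R ≠ Q → ∀ w ∈ Q, w • R ≠ Q := by
      intro R hR w hw h
      apply hR
      apply MulAction.injective w
      show w • R = w • Q
      rw [h, smul_of_mem hw]
    have i1 : ((fun R => z • R) '' A).ncard = 9 := by
      rw [Set.ncard_image_of_injective _ (MulAction.injective z), hAc]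
    have i2 : ((fun R => z ^ 2 • R) '' A).ncard = 9 := by
      rw [Set.ncard_image_of_injective _ (MulAction.injective (z ^ 2)), hAc]
    have d1 : Disjoint A ((fun R => z • R) '' A) := by
      rw [Set.disjoint_left]
      rintro _ hR ⟨S, hS, rfl⟩
      exact hzA S hS hR.1
    have d2 : Disjoint (A ∪ ((fun R => z • R) '' A)) ((fun R => z ^ 2 • R) '' A) := by
      rw [Set.disjoint_left]
      rintro T hT ⟨S, hS, hST⟩
      rcases hT with hT | ⟨R, hR, hRT⟩
      · apply hzzA S hS
        have e : z ^ 2 • S = T := hST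
        rw [e]; exact hT.1
      · have e1 : z • R = T := hRT
        have e2 : z ^ 2 • S = T := hST
        rw [← e1, pow_two, mul_smul] at e2
        have e3 := MulAction.injective z e2
        apply hzA S hS
        have e4 : z • S = R := e3
        rw [e4]
        exact hR.1
    have u : ((A ∪ ((fun R => z • R) '' A)) ∪ ((fun R => z ^ 2 • R) '' A)).ncard = 27 := by
      rw [Set.ncard_union_eq d2 (Set.toFinite _) (Set.toFinite _),
        Set.ncard_union_eq d1 (Set.toFinite _) (Set.toFinite _), i1, i2, hAc]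
    have : ((A ∪ ((fun R => z • R) '' A)) ∪ ((fun R => z ^ 2 • R) '' A)).ncard ≤ 22 := by
      rw [← h22, ← Set.ncard_univ]
      exact Set.ncard_le_ncard (Set.subset_univ _) (Set.toFinite _)
    omega
  have h6 := card_F_dvd hne hcen
  rw [h5] at h6
  obtain ⟨y, hy⟩ := exists_prime_orderOf_dvd_card' 5 (dvd_trans (by norm_num : 5 ∣ 10) h6)
  have hyo : orderOf (y : G) = 5 := by rw [Subgroup.orderOf_coe]; exact hy
  exact no_five h22 hc y hyo

theorem centralizer_primes (P : Sylow 3 G) {q : ℕ} (hq : q.Prime)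
    (hd : q ∣ Nat.card (centralizer ((P : Subgroup G) : Set G))) :
    (q = 3 ∨ q = 7) ∧ (q = 7 → ∀ y ∈ centralizer ((P : Subgroup G) : Set G), orderOf y = 7 → F y = {P}) := by
  haveI := Fact.mk hq
  have key : ∀ y ∈ centralizer ((P : Subgroup G) : Set G), orderOf y = q → q = 3 ∨ q = 7 ∧ F y = {P} := by
    intro y hyC hyo
    have hcen : ∀ z ∈ P, y * z = z * y := fun z hz => (mem_centralizer_iff.1 hyC z hz).symm
    have hy1 : y ≠ 1 := by
      intro h
      rw [h, orderOf_one] at hyo
      exact hq.one_lt.ne hyo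
    have h1 := F_modq h22 hyo
    have h2 := F_card_le h22 y
    have h3 := F_ne h22 hy1
    have h4 := F_mod3 hcen
    by_cases hq3 : q = 3
    · left; exact hq3
    right
    have h5 : q ∣ 22 - (F y).ncard := (Nat.modEq_iff_dvd' h2).1 h1
    have h6 : 3 ∣ 22 - (F y).ncard := by
      unfold Nat.ModEq at h4
      omega
    have h7 : 3 * q ∣ 22 - (F y).ncard :=
      Nat.Coprime.mul_dvd_of_dvd_of_dvd ((Nat.coprime_primes Nat.prime_three hq).2 (Ne.symm hq3)) h6 h5
    have h8 : 3 * q ≤ 22 - (F y).ncard := Nat.le_of_dvd (by omega) h7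
    have h9 : q ≤ 7 := by omega
    have h10 := hq.two_le
    interval_cases q
    · exact (no_two h22 hc y hyo P hcen).elim
    · exact absurd rfl hq3
    · exact absurd hq (by norm_num)
    · exact (no_five h22 hc y hyo).elim
    · exact absurd hq (by norm_num)
    · refine ⟨rfl, ?_⟩
      have h11 : (F y).ncard = 1 := by omega
      obtain ⟨R, hR⟩ := Set.ncard_eq_one.1 h11
      have hPy : P ∈ F y := by
        apply Sylow.smul_eq_iff_mem_normalizer.2
        exact Subgroup.centralizer_le_normalizer _ hyC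
      rw [hR] at hPy ⊢
      rw [Set.mem_singleton_iff.1 hPy]
  obtain ⟨y, hy⟩ := exists_prime_orderOf_dvd_card' q hd
  refine ⟨?_, ?_⟩
  · rcases key y y.2 (by rw [Subgroup.orderOf_coe]; exact hy) with h | h
    · exact Or.inl h
    · exact Or.inr h.1
  · intro hq7 y hy hyo
    rcases key y hy (by rw [hyo, hq7]) with h | h
    · omega
    · exact h.2

theorem card_centralizer_dvd (P : Sylow 3 G) : Nat.card (centralizer ((P : Subgroup G) : Set G)) ∣ 21 := by
  haveI : Fact (Nat.Prime 7) := ⟨by norm_num⟩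
  set C := centralizer ((P : Subgroup G) : Set G) with hC
  rw [Nat.dvd_iff_prime_pow_dvd_dvd]
  intro q k hq hd
  rcases Nat.eq_zero_or_pos k with hk | hk
  · rw [hk, pow_zero]; exact one_dvd _
  have hqd : q ∣ Nat.card C := (dvd_pow_self q hk.ne').trans hd
  obtain ⟨h1, h2⟩ := centralizer_primes h22 hc P hq hqd
  rcases h1 with h1 | h1
  · subst h1
    have h3 : 3 ^ k ∣ Nat.card (P : Subgroup G) :=
      P.pow_dvd_card_of_pow_dvd_card (hd.trans (Subgroup.card_subgroup_dvd_card C))
    have h4 : Nat.card (P : Subgroup G) = 3 := hc P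
    rw [h4] at h3
    exact h3.trans (by norm_num)
  · subst h1
    obtain ⟨S⟩ : Nonempty (Sylow 7 C) := inferInstance
    have h3 := S.pow_dvd_card_of_pow_dvd_card hd
    refine h3.trans ?_
    set T : Subgroup G := (S : Subgroup C).map C.subtype with hT
    have hTc : Nat.card T = Nat.card (S : Subgroup C) :=
      Nat.card_congr ((S : Subgroup C).equivMapOfInjective C.subtype C.subtype_injective).toEquiv.symm
    have hT7 : IsPGroup 7 T := by
      rw [hT]; exact S.2.map _
    have hTC : T ≤ C := Subgroup.map_subtype_le _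
    rw [← hTc]
    have h4 : ({P}ᶜ : Set (Sylow 3 G)).ncard = 21 := by
      rw [Set.ncard_compl, Set.ncard_singleton, h22]
    rw [← h4]
    have hPC : ∀ x ∈ C, x • P = P := fun x hx => by
      apply Sylow.smul_eq_iff_mem_normalizer.2
      exact Subgroup.centralizer_le_normalizer _ hx
    refine dvd_ncard (Q := T) (Nat.card T) _ ?_ ?_
    · intro x hx Q hQ h
      apply hQ
      rw [Set.mem_singleton_iff] at h ⊢
      apply MulAction.injective x
      show x • Q = x • P
      rw [h, hPC x (hTC hx)]
    · intro Q hQ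
      rw [← MulAction.index_stabilizer]
      have h5 : stabilizer T Q = ⊥ := by
        rw [eq_bot_iff]
        intro y hy
        rw [mem_bot]
        by_contra hy1
        have hy1' : (y : G) ≠ 1 := fun h => hy1 (Subtype.ext h)
        obtain ⟨n, hn⟩ := Cfsg.Agent.H24.Tools.exists_orderOf hT7 y.2
        have hn0 : n ≠ 0 := by
          rintro rfl
          rw [pow_zero, orderOf_eq_one_iff] at hn
          exact hy1' hn
        obtain ⟨m, rfl⟩ := Nat.exists_eq_succ_of_ne_zero hn0
        have h6 : orderOf ((y : G) ^ 7 ^ m) = 7 := by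
          rw [orderOf_pow, hn, pow_succ, Nat.gcd_eq_right (Dvd.intro _ rfl)]
          rw [mul_comm, Nat.mul_div_cancel]
          exact pow_pos (by norm_num) _
        have h7 := h2 rfl _ (pow_mem (hTC y.2) _) h6
        have h8 : (y : G) ∈ stabilizer G Q := hy
        have h9 : Q ∈ F ((y : G) ^ 7 ^ m) := pow_mem h8 _
        rw [h7] at h9
        exact hQ h9
      rw [h5, Subgroup.index_bot]

end c22

/-- no simple group has 22 Sylow 3-subgroups -/
theorem simple_case [IsSimpleGroup G] : Nat.card (Sylow 3 G) ≠ 22 := by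
  intro h22
  haveI : Fact (Nat.Prime 11) := ⟨by norm_num⟩
  have hc : ∀ P : Sylow 3 G, Nat.card P = 3 := fun P => card_three h22 P
  obtain ⟨P⟩ : Nonempty (Sylow 3 G) := inferInstance
  have h1 := card_centralizer_dvd h22 hc P
  have hPc : Nat.card (P : Subgroup G) = 3 := hc P
  haveI : IsCyclic (P : Subgroup G) := isCyclic_of_prime_card hPc
  have h2 := Cfsg.Agent.H21.Syl15.card_normalizer_dvd (P : Subgroup G)
  rw [hPc, Nat.totient_prime Nat.prime_three] at h2
  have h3 : Nat.card (normalizer ((P : Subgroup G) : Set G)) ∣ 42 :=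
    h2.trans (mul_dvd_mul_left 2 h1)
  have h4 : (normalizer ((P : Subgroup G) : Set G)).index = 22 := by
    rw [← h22]; exact (Sylow.card_eq_index_normalizer P).symm
  have h5 := Subgroup.card_mul_index (normalizer ((P : Subgroup G) : Set G))
  rw [h4] at h5
  have h6 : 3 ∣ Nat.card (normalizer ((P : Subgroup G) : Set G)) := by
    have := Subgroup.card_dvd_of_le (Subgroup.le_normalizer (H := (P : Subgroup G)))
    rwa [hPc] at this
  have h7 : Nat.card (normalizer ((P : Subgroup G) : Set G)) ≤ 42 := Nat.le_of_dvd (by norm_num) h3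
  set n := Nat.card (normalizer ((P : Subgroup G) : Set G)) with hn
  obtain ⟨R⟩ : Nonempty (Sylow 11 G) := inferInstance
  -- order of R
  have hRc : Nat.card (R : Subgroup G) = 11 := by
    obtain ⟨k, hk⟩ := R.2.exists_card_eq
    have e1 : Nat.card (R : Subgroup G) ∣ n * 22 := h5 ▸ Subgroup.card_subgroup_dvd_card _
    have e2 : 11 ∣ Nat.card (R : Subgroup G) := R.dvd_card_of_dvd_card (by rw [← h5]; exact Dvd.intro (n * 2) (by ring))
    rw [hk] at e1 e2 ⊢
    have e3 : 11 ^ k ∣ 42 * 22 := e1.trans (mul_dvd_mul_right h3 22)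
    rcases k with _ | _ | k
    · norm_num at e2
    · norm_num
    · exfalso
      have : 11 ^ 2 ∣ 42 * 22 := (pow_dvd_pow 11 (by omega)).trans e3
      revert this
      norm_num
  have h8 := card_sylow_modEq_one 11 G
  have h9 : Nat.card (Sylow 11 G) = (normalizer ((R : Subgroup G) : Set G)).index := Sylow.card_eq_index_normalizer R
  rw [h9] at h8
  have h10 := Subgroup.card_mul_index (normalizer ((R : Subgroup G) : Set G))
  have h11 : 11 ∣ Nat.card (normalizer ((R : Subgroup G) : Set G)) := by
    have := Subgroup.card_dvd_of_le (Subgroup.le_normalizer (H := (R : Subgroup G)))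
    rwa [hRc] at this
  haveI : IsCyclic (R : Subgroup G) := isCyclic_of_prime_card hRc
  have h12 := Cfsg.Agent.H21.Syl15.card_normalizer_dvd (R : Subgroup G)
  have hRne : (R : Subgroup G) ≠ ⊤ := by
    intro h
    have : Nat.card (R : Subgroup G) = Nat.card G := by rw [h]; exact Subgroup.card_top
    rw [hRc, ← h5] at this
    omega
  have hRne' : (R : Subgroup G) ≠ ⊥ := by
    intro h
    rw [h, Subgroup.card_bot] at hRc
    omega
  have hNR : (normalizer ((R : Subgroup G) : Set G)).index ≠ 1 := by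
    intro h
    have : (R : Subgroup G).Normal := normalizer_eq_top_iff.1 (Subgroup.index_eq_one.1 h)
    rcases IsSimpleGroup.eq_bot_or_eq_top_of_normal _ this with h | h
    · exact hRne' h
    · exact hRne h
  obtain ⟨m, hm⟩ := h11
  rw [← h5, hm] at h10
  have h13 : m * (normalizer ((R : Subgroup G) : Set G)).index = n * 2 := by
    have : 11 * (m * (normalizer ((R : Subgroup G) : Set G)).index) = 11 * (n * 2) := by
      rw [← mul_assoc, h10]; ring
    exact Nat.eq_of_mul_eq_mul_left (by norm_num) this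
  have h14 : m = 1 ∨ m = 7 := by
    generalize (normalizer ((R : Subgroup G) : Set G)).index = r at *
    have hnpos : 0 < n := Nat.card_pos
    have hr84 : r ≤ 84 := by
      have : r ∣ n * 2 := Dvd.intro_left _ h13
      exact (Nat.le_of_dvd (by omega) this).trans (by omega)
    unfold Nat.ModEq at h8
    have hn' : n = 3 ∨ n = 6 ∨ n = 21 ∨ n = 42 := by
      clear_value n
      interval_cases n <;> omega
    have hr' : r = 12 ∨ r = 23 ∨ r = 34 ∨ r = 45 ∨ r = 56 ∨ r = 67 ∨ r = 78 := by omega
    rcases hr' with rfl | rfl | rfl | rfl | rfl | rfl | rfl <;> omega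
  -- Burnside
  have h15 : normalizer ((R : Subgroup G) : Set G) ≤ centralizer ((R : Subgroup G) : Set G) := by
    rw [hRc, Nat.totient_prime (by norm_num : Nat.Prime 11), hm] at h12
    have h16 : 11 * m ∣ Nat.card (centralizer ((R : Subgroup G) : Set G)) := by
      apply Nat.Coprime.dvd_of_dvd_mul_left _ h12
      rcases h14 with h | h <;> rw [h] <;> norm_num
    have h17 : centralizer ((R : Subgroup G) : Set G) = normalizer ((R : Subgroup G) : Set G) := by
      apply Subgroup.eq_of_le_of_card_ge (Subgroup.centralizer_le_normalizer _)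
      rw [hm]
      exact Nat.le_of_dvd Nat.card_pos h16
    exact h17.ge
  refine Cfsg.Agent.H21.Syl15.not_simple_of_burnside R h15
    (fun N hN => IsSimpleGroup.eq_bot_or_eq_top_of_normal N hN) (by rw [hRc]; norm_num) ?_
  intro h
  exact hRne (Subgroup.eq_top_of_card_eq _ h)

end Cfsg.Agent.H23.N22
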