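import Mathlib
import Cfsg.Agent.H23_N22
import Cfsg.Agent.H21_Syl15b

/-!
"No finite group has exactly 35 Sylow 17-subgroups": the simple case.
-/

set_option autoImplicit false
set_option linter.all false

open MulAction Subgroup
open scoped Pointwise

namespace Cfsg.Agent.H23.N35

variable {G : Type*} [Group G] [Finite G] [hp17 : Fact (Nat.Prime 17)]

theorem mem_smul {x y : G} {P : Sylow 17 G} : y ∈ (x • P : Sylow 17 G) ↔ x⁻¹ * y * x ∈ P := by
  have h := Cfsg.Agent.H24.Tools.mem_conj (g := x) (x := y) (H := (P : Subgroup G))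
  exact h

theorem mem_of_smul {x : G} {P Q : Sylow 17 G} (hx : x ∈ P) (h : x • Q = Q) : x ∈ Q := by
  have h1 := P.2.inf_normalizer_sylow Q
  have h2 : x ∈ (P : Subgroup G) ⊓ normalizer (Q : Set G) :=
    ⟨hx, Sylow.smul_eq_iff_mem_normalizer.1 h⟩
  rw [h1] at h2
  exact h2.2

theorem smul_of_mem {x : G} {Q : Sylow 17 G} (hx : x ∈ Q) : x • Q = Q :=
  Sylow.smul_eq_iff_mem_normalizer.2 (Subgroup.le_normalizer hx)

theorem card_eq (P Q : Sylow 17 G) : Nat.card P = Nat.card Q := Nat.card_congr (Sylow.equiv P Q).toEquiv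

theorem le_iff {P Q : Sylow 17 G} : (P : Subgroup G) ≤ Q ↔ P = Q := by
  refine ⟨fun h => ?_, fun h => by rw [h]⟩
  apply Sylow.ext
  exact Subgroup.eq_of_le_of_card_ge h (card_eq P Q).ge

theorem card_pow (P : Sylow 17 G) : ∃ n, Nat.card P = 17 ^ n := P.2.exists_card_eq

theorem orbit_mul (P Q : Sylow 17 G) :
    (orbit (P : Subgroup G) Q).ncard * Nat.card ((P : Subgroup G) ⊓ Q : Subgroup G) = Nat.card P := by
  rw [← MulAction.index_stabilizer]
  have h1 : stabilizer (P : Subgroup G) Q = (Q : Subgroup G).subgroupOf P := by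
    ext x
    rw [mem_stabilizer_iff, Subgroup.mem_subgroupOf]
    exact ⟨fun h => mem_of_smul x.2 h, fun h => smul_of_mem h⟩
  rw [h1]
  have h2 := Cfsg.Agent.H24.Tools.card_inf_mul_relIndex (Q : Subgroup G) (P : Subgroup G)
  rw [mul_comm, inf_comm]
  exact h2

variable (h35 : Nat.card (Sylow 17 G) = 35)

include h35

theorem inf_card {P Q : Sylow 17 G} (hne : P ≠ Q) :
    Nat.card ((P : Subgroup G) ⊓ Q : Subgroup G) * 17 = Nat.card P := by
  have h1 := orbit_mul P Q
  obtain ⟨n, hn⟩ := card_pow P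
  have h2 : (orbit (P : Subgroup G) Q).ncard ∣ 17 ^ n := by rw [← hn]; exact Dvd.intro _ h1
  obtain ⟨k, hk, hk2⟩ := (Nat.dvd_prime_pow hp17.out).1 h2
  have h3 : (orbit (P : Subgroup G) Q).ncard ≤ 35 := by
    rw [← h35, ← Set.ncard_univ]
    exact Set.ncard_le_ncard (Set.subset_univ _) (Set.toFinite _)
  have h4 : (orbit (P : Subgroup G) Q).ncard ≠ 1 := by
    intro h
    rw [h, one_mul] at h1
    apply hne
    rw [← le_iff, ← inf_eq_left]
    exact Subgroup.eq_of_le_of_card_ge inf_le_left h1.ge
  have hk3 : k < 2 := by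
    by_contra hc
    have : 17 ^ 2 ≤ 17 ^ k := Nat.pow_le_pow_right (by norm_num) (by omega)
    omega
  interval_cases k
  · omega
  · rw [← h1, hk2, pow_one, mul_comm]

theorem exists_moved : ∃ (x : G) (P : Sylow 17 G), x • P ≠ P := by
  by_contra hcon
  push Not at hcon
  obtain ⟨P⟩ : Nonempty (Sylow 17 G) := inferInstance
  have : Subsingleton (Sylow 17 G) := by
    refine ⟨fun A B => ?_⟩
    obtain ⟨x, rfl⟩ := MulAction.exists_smul_eq G A B
    exact (hcon x A).symm
  rw [Nat.card_unique] at h35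
  omega

theorem nonabelian : ∃ a b : G, a * b ≠ b * a := by
  by_contra hcon
  push Not at hcon
  obtain ⟨x, P, hx⟩ := exists_moved h35
  apply hx
  apply Sylow.ext
  ext y
  have := mem_smul (x := x) (y := y) (P := P)
  rw [hcon x⁻¹ y, mul_assoc, inv_mul_cancel, mul_one] at this
  exact this

variable [IsSimpleGroup G]

theorem eq_one_of_fix {y : G} (hy : ∀ Q : Sylow 17 G, y • Q = Q) : y = 1 := by
  have h2 : y ∈ (toPermHom G (Sylow 17 G)).ker := by
    rw [MonoidHom.mem_ker]
    ext1 Q
    exact hy Q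
  rcases IsSimpleGroup.eq_bot_or_eq_top_of_normal (toPermHom G (Sylow 17 G)).ker inferInstance with h3 | h3
  · rwa [h3, mem_bot] at h2
  · obtain ⟨x, P, hx⟩ := exists_moved h35
    have : x ∈ (toPermHom G (Sylow 17 G)).ker := by rw [h3]; trivial
    rw [MonoidHom.mem_ker] at this
    exact absurd (congrArg (fun f : Equiv.Perm (Sylow 17 G) => f P) this) hx

/-- Sylow subgroups have order 17 -/
theorem card_P (P : Sylow 17 G) : Nat.card P = 17 := by
  classical
  by_contra hne17
  -- lines
  have hX : ∀ R S : Sylow 17 G, R ≠ S → {T : Sylow 17 G | (R : Subgroup G) ⊓ S ≤ T}.ncard = 18 := by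
    intro R S hRS
    have hD : IsPGroup 17 ((R : Subgroup G) ⊓ S : Subgroup G) := R.2.to_le inf_le_left
    have h1 := H23.N22.ncard_modEq hD (Set.univ : Set (Sylow 17 G)) (fun _ _ _ _ => trivial)
    rw [Set.ncard_univ, h35] at h1
    have h2 : {ω : Sylow 17 G | ω ∈ Set.univ ∧ ∀ x ∈ ((R : Subgroup G) ⊓ S : Subgroup G), x • ω = ω} =
        {T : Sylow 17 G | (R : Subgroup G) ⊓ S ≤ T} := by
      ext T
      constructor
      · rintro ⟨_, h2⟩ x hx
        exact mem_of_smul (P := R) hx.1 (h2 x hx)
      · intro hT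
        exact ⟨trivial, fun x hx => smul_of_mem (hT hx)⟩
    rw [h2] at h1
    have h3 : 2 ≤ {T : Sylow 17 G | (R : Subgroup G) ⊓ S ≤ T}.ncard := by
      have : ({R, S} : Set (Sylow 17 G)) ⊆ {T : Sylow 17 G | (R : Subgroup G) ⊓ S ≤ T} := by
        rintro x (hx | hx)
        · rw [hx]; exact inf_le_left (a := (R : Subgroup G)) (b := (S : Subgroup G))
        · rw [Set.mem_singleton_iff.1 hx]; exact inf_le_right (a := (R : Subgroup G)) (b := (S : Subgroup G))
      have h2 := Set.ncard_le_ncard this (Set.toFinite _)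
      rwa [Set.ncard_pair hRS] at h2
    have h4 : {T : Sylow 17 G | (R : Subgroup G) ⊓ S ≤ T}.ncard ≤ 35 := by
      rw [← h35, ← Set.ncard_univ]
      exact Set.ncard_le_ncard (Set.subset_univ _) (Set.toFinite _)
    have h5 : {T : Sylow 17 G | (R : Subgroup G) ⊓ S ≤ T}.ncard ≠ 35 := by
      intro h
      have h6 : {T : Sylow 17 G | (R : Subgroup G) ⊓ S ≤ T} = Set.univ := by
        apply Set.eq_of_subset_of_ncard_le (Set.subset_univ _) _ (Set.toFinite _)
        rw [Set.ncard_univ, h35, h]
      have h7 : (R : Subgroup G) ⊓ S = ⊥ := by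
        rw [eq_bot_iff]
        intro y hy
        rw [mem_bot]
        apply eq_one_of_fix h35
        intro Q
        apply smul_of_mem
        have : Q ∈ {T : Sylow 17 G | (R : Subgroup G) ⊓ S ≤ T} := by rw [h6]; trivial
        exact this hy
      have h8 := inf_card h35 hRS
      rw [h7, Subgroup.card_bot, one_mul] at h8
      exact hne17 (by rw [card_eq P R]; exact h8.symm)
    unfold Nat.ModEq at h1
    omega
  -- two lines meeting in two points are equal
  have hL : ∀ A B C D : Sylow 17 G, A ≠ B → A ≠ C → A ≠ D → (A : Subgroup G) ⊓ B ≤ D → (A : Subgroup G) ⊓ C ≤ D →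
      (A : Subgroup G) ⊓ B = (A : Subgroup G) ⊓ C := by
    intro A B C D hAB hAC hAD h1 h2
    have e1 := inf_card h35 hAB
    have e2 := inf_card h35 hAC
    have e3 := inf_card h35 hAD
    have f1 : (A : Subgroup G) ⊓ B = (A : Subgroup G) ⊓ D :=
      Subgroup.eq_of_le_of_card_ge (le_inf inf_le_left h1) (by omega)
    have f2 : (A : Subgroup G) ⊓ C = (A : Subgroup G) ⊓ D :=
      Subgroup.eq_of_le_of_card_ge (le_inf inf_le_left h2) (by omega)
    rw [f1, f2]
  obtain ⟨Q, hQ⟩ : ∃ Q : Sylow 17 G, P ≠ Q := by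
    by_contra hcon
    push Not at hcon
    have : Subsingleton (Sylow 17 G) := ⟨fun a b => by rw [← hcon a, ← hcon b]⟩
    haveI : Nonempty (Sylow 17 G) := ⟨P⟩
    have := Nat.card_unique (α := Sylow 17 G)
    omega
  set XD : Set (Sylow 17 G) := {T : Sylow 17 G | (P : Subgroup G) ⊓ Q ≤ T} with hXD
  have hXDc : XD.ncard = 18 := hX P Q hQ
  obtain ⟨R, hR⟩ : ∃ R : Sylow 17 G, R ∉ XD := by
    by_contra hcon
    push Not at hcon
    have : XD = Set.univ := Set.eq_univ_of_forall hcon
    rw [this, Set.ncard_univ, h35] at hXDc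
    omega
  have hPR : P ≠ R := by
    rintro rfl
    exact hR (inf_le_left (a := (P : Subgroup G)) (b := (Q : Subgroup G)))
  have hQR : Q ≠ R := by
    rintro rfl
    exact hR (inf_le_right (a := (P : Subgroup G)) (b := (Q : Subgroup G)))
  set XE : Set (Sylow 17 G) := {T : Sylow 17 G | (P : Subgroup G) ⊓ R ≤ T} with hXE
  set XF : Set (Sylow 17 G) := {T : Sylow 17 G | (Q : Subgroup G) ⊓ R ≤ T} with hXF
  have hXEc : XE.ncard = 18 := hX P R hPR
  have hXFc : XF.ncard = 18 := hX Q R hQR
  have i1 : XD ∩ XE ⊆ {P} := by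
    rintro S ⟨h1, h2⟩
    rw [Set.mem_singleton_iff]
    by_contra hS
    have := hL P Q R S hQ hPR (Ne.symm hS) h1 h2
    apply hR
    show (P : Subgroup G) ⊓ Q ≤ R
    rw [this]
    exact inf_le_right
  have i2 : XD ∩ XF ⊆ {Q} := by
    rintro S ⟨h1, h2⟩
    rw [Set.mem_singleton_iff]
    by_contra hS
    have h1' : (Q : Subgroup G) ⊓ P ≤ S := by rw [inf_comm]; exact h1
    have := hL Q P R S hQ.symm hQR (Ne.symm hS) h1' h2
    apply hR
    show (P : Subgroup G) ⊓ Q ≤ R
    rw [inf_comm, this]
    exact inf_le_right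
  have i3 : XE ∩ XF ⊆ {R} := by
    rintro S ⟨h1, h2⟩
    rw [Set.mem_singleton_iff]
    by_contra hS
    have h1' : (R : Subgroup G) ⊓ P ≤ S := by rw [inf_comm]; exact h1
    have h2' : (R : Subgroup G) ⊓ Q ≤ S := by rw [inf_comm]; exact h2
    have h3 := hL R P Q S hPR.symm hQR.symm (Ne.symm hS) h1' h2'
    apply hR
    show (P : Subgroup G) ⊓ Q ≤ R
    have h4 : (R : Subgroup G) ⊓ P ≤ (P : Subgroup G) ⊓ Q := le_inf inf_le_right (by rw [h3]; exact inf_le_right)
    have e1 := inf_card h35 hQ
    have e2 := inf_card h35 hPR.symm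
    have e3 := card_eq P R
    have h5 := Subgroup.eq_of_le_of_card_ge h4 (by omega)
    rw [← h5]
    exact inf_le_left
  have c1 : (XD ∩ XE).ncard ≤ 1 := by
    rw [← Set.ncard_singleton P]
    exact Set.ncard_le_ncard i1 (Set.toFinite _)
  have c2 : (XD ∩ XF).ncard ≤ 1 := by
    rw [← Set.ncard_singleton Q]
    exact Set.ncard_le_ncard i2 (Set.toFinite _)
  have c3 : (XE ∩ XF).ncard ≤ 1 := by
    rw [← Set.ncard_singleton R]
    exact Set.ncard_le_ncard i3 (Set.toFinite _)
  have c4 := Set.ncard_union_add_ncard_inter XD XE (Set.toFinite _) (Set.toFinite _)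
  have c5 := Set.ncard_union_add_ncard_inter (XD ∪ XE) XF (Set.toFinite _) (Set.toFinite _)
  have c6 : ((XD ∪ XE) ∩ XF).ncard ≤ 2 := by
    rw [Set.union_inter_distrib_right]
    have := Set.ncard_union_le (XD ∩ XF) (XE ∩ XF)
    omega
  have c7 : ((XD ∪ XE) ∪ XF).ncard ≤ 35 := by
    rw [← h35, ← Set.ncard_univ]
    exact Set.ncard_le_ncard (Set.subset_univ _) (Set.toFinite _)
  omega

/-- the centralizer of `P` has odd order -/
theorem no_invol {P : Sylow 17 G} {t : G} (ht : t ^ 2 = 1) (hc : ∀ z ∈ P, t * z = z * t) : t = 1 := by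
  have hm4 := H23.N22.sign_mod4 (Ω := Sylow 17 G) (nonabelian h35) t ht
  have hyP : t • P = P := by
    apply Sylow.smul_eq_iff_mem_normalizer.2
    apply Subgroup.centralizer_le_normalizer
    rw [mem_centralizer_iff]
    intro z hz
    exact (hc z hz).symm
  have h := H23.N22.ncard_modEq P.2 {Q : Sylow 17 G | t • Q = Q} (by
    intro x hx Q hQ
    show t • x • Q = x • Q
    have hQ' : t • Q = Q := hQ
    rw [← mul_smul, hc x hx, mul_smul, hQ'])
  have h2 : {ω : Sylow 17 G | ω ∈ {Q : Sylow 17 G | t • Q = Q} ∧ ∀ x ∈ (P : Subgroup G), x • ω = ω} = {P} := by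
    ext Q
    rw [Set.mem_singleton_iff]
    constructor
    · rintro ⟨_, h2⟩
      symm
      rw [← le_iff]
      intro x hx
      exact mem_of_smul hx (h2 x hx)
    · rintro rfl
      exact ⟨hyP, fun x hx => smul_of_mem hx⟩
  rw [h2, Set.ncard_singleton] at h
  rw [h35] at hm4
  have h3 : {Q : Sylow 17 G | t • Q = Q}.ncard ≤ 35 := by
    rw [← h35, ← Set.ncard_univ]
    exact Set.ncard_le_ncard (Set.subset_univ _) (Set.toFinite _)
  have h4 : {Q : Sylow 17 G | t • Q = Q}.ncard = 35 := by
    unfold Nat.ModEq at h hm4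
    omega
  apply eq_one_of_fix h35
  intro Q
  have h6 : {Q : Sylow 17 G | t • Q = Q} = Set.univ := by
    apply Set.eq_of_subset_of_ncard_le (Set.subset_univ _) _ (Set.toFinite _)
    rw [Set.ncard_univ, h35, h4]
  have : Q ∈ {Q : Sylow 17 G | t • Q = Q} := by rw [h6]; trivial
  exact this

theorem simple_case : False := by
  classical
  obtain ⟨P⟩ : Nonempty (Sylow 17 G) := inferInstance
  have hP17 : Nat.card (P : Subgroup G) = 17 := card_P h35 P
  haveI hcyc : IsCyclic (P : Subgroup G) := isCyclic_of_prime_card (p := 17) hP17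
  have hind : (normalizer (P : Set G)).index = 35 := by
    rw [← h35]; exact (Sylow.card_eq_index_normalizer P).symm
  have hG : Nat.card (normalizer (P : Set G)) * 35 = Nat.card G := by
    rw [← hind]; exact Subgroup.card_mul_index _
  have hs : ∀ N : Subgroup G, N.Normal → N = ⊥ ∨ N = ⊤ := fun N hN => IsSimpleGroup.eq_bot_or_eq_top_of_normal N hN
  have hdvd := H21.Syl15.card_normalizer_dvd (P : Subgroup G)
  rw [hP17] at hdvd
  have htot : Nat.totient 17 = 16 := by decide
  rw [htot] at hdvd
  have h17N : 17 ∣ Nat.card (normalizer (P : Set G)) := by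
    have := Subgroup.card_dvd_of_le (Subgroup.le_normalizer (H := (P : Subgroup G)))
    rwa [hP17] at this
  by_cases hodd : 2 ∣ Nat.card (normalizer (P : Set G))
  · -- cyclic Sylow 2-subgroups
    haveI : Fact (Nat.Prime 2) := ⟨Nat.prime_two⟩
    obtain ⟨T0⟩ : Nonempty (Sylow 2 (normalizer (P : Set G))) := inferInstance
    set T : Subgroup G := (T0 : Subgroup (normalizer (P : Set G))).map (normalizer (P : Set G)).subtype with hT
    have hTc : Nat.card T = 2 ^ (Nat.card G).factorization 2 := by
      rw [hT, Subgroup.card_map_of_injective (Subgroup.subtype_injective _), T0.card_eq_multiplicity, ← hG,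
        Nat.factorization_mul Nat.card_pos.ne' (by norm_num)]
      congr 1
      rw [Finsupp.add_apply]
      have : (35 : ℕ).factorization 2 = 0 := Nat.factorization_eq_zero_of_not_dvd (by norm_num)
      rw [this, add_zero]
    have hTN : T ≤ normalizer (P : Set G) := Subgroup.map_subtype_le _
    have hTp : IsPGroup 2 T := IsPGroup.of_card hTc
    -- T is cyclic
    have hTcyc : IsCyclic T := by
      let f : T →* MulAut (P : Subgroup G) := (P : Subgroup G).normalizerMonoidHom.comp (Subgroup.inclusion hTN)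
      have hf : Function.Injective f := by
        rw [injective_iff_map_eq_one]
        intro x hx
        by_contra hx1
        have hxc : (x : G) ∈ centralizer ((P : Subgroup G) : Set G) := by
          have h1 : Subgroup.inclusion hTN x ∈ (P : Subgroup G).normalizerMonoidHom.ker := hx
          rw [normalizerMonoidHom_ker] at h1
          exact h1
        have h3 : IsPGroup 2 (T ⊓ centralizer ((P : Subgroup G) : Set G) : Subgroup G) := hTp.to_le inf_le_left
        obtain ⟨y0, hy0⟩ : ∃ y : (T ⊓ centralizer ((P : Subgroup G) : Set G) : Subgroup G), orderOf y = 2 := by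
          apply exists_prime_orderOf_dvd_card'
          rcases h3.card_eq_or_dvd with h4 | h4
          · exfalso
            rw [Subgroup.card_eq_one] at h4
            have h5 : (x : G) ∈ T ⊓ centralizer ((P : Subgroup G) : Set G) := ⟨x.2, hxc⟩
            rw [h4, mem_bot] at h5
            exact hx1 (Subtype.ext h5)
          · exact h4
        obtain ⟨y, hy, hyo⟩ : ∃ y ∈ T ⊓ centralizer ((P : Subgroup G) : Set G), orderOf y = 2 :=
          ⟨y0, y0.2, by rw [Subgroup.orderOf_coe]; exact hy0⟩
        have hyc : y ∈ centralizer ((P : Subgroup G) : Set G) := hy.2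
        have := no_invol h35 (P := P) (t := y) (by rw [← hyo]; exact pow_orderOf_eq_one y) (by
          intro z hz
          exact (mem_centralizer_iff.1 hyc z hz).symm)
        rw [this, orderOf_one] at hyo
        omega
      haveI : IsCyclic (MulAut (P : Subgroup G)) := by
        have e := IsCyclic.mulAutMulEquiv (P : Subgroup G)
        rw [hP17] at e
        haveI := ZMod.isCyclic_units_prime hp17.out
        exact isCyclic_of_surjective e.symm.toMonoidHom e.symm.surjective
      exact isCyclic_of_injective f hf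
    let T' : Sylow 2 G := Sylow.ofCard T hTc
    have h2G : 2 ∣ Nat.card G := hodd.trans (Dvd.intro _ hG)
    have hmin : (Nat.card G).minFac = 2 := (Nat.minFac_eq_two_iff _).2 h2G
    haveI : IsCyclic (T' : Subgroup G) := hTcyc
    have hb := IsCyclic.normalizer_le_centralizer hmin (P := T') hTcyc
    refine H21.Syl15.not_simple_of_burnside T' hb hs ?_ ?_
    · have : Nat.card (T' : Subgroup G) = 2 ^ (Nat.card G).factorization 2 := hTc
      rw [this]
      have h3 : (Nat.card G).factorization 2 ≠ 0 := (Nat.Prime.factorization_pos_of_dvd Nat.prime_two Nat.card_pos.ne' h2G).ne'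
      intro h4
      rw [Nat.pow_eq_one] at h4
      omega
    · have : Nat.card (T' : Subgroup G) = 2 ^ (Nat.card G).factorization 2 := hTc
      rw [this]
      intro h4
      have h5 : 17 ∣ 2 ^ (Nat.card G).factorization 2 := by
        rw [h4]; exact h17N.trans (Dvd.intro _ hG)
      have h6 := (Nat.prime_dvd_prime_iff_eq (by norm_num) Nat.prime_two).1 (Nat.Prime.dvd_of_dvd_pow (by norm_num : Nat.Prime 17) h5)
      omega
  · -- odd order
    have hco : (Nat.card (normalizer (P : Set G))).Coprime 16 := by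
      have : (16 : ℕ) = 2 ^ 4 := by norm_num
      rw [this]
      apply Nat.Coprime.pow_right
      rw [Nat.coprime_comm]
      exact (Nat.Prime.coprime_iff_not_dvd Nat.prime_two).2 hodd
    have h1 : Nat.card (normalizer (P : Set G)) ∣ Nat.card (centralizer ((P : Subgroup G) : Set G)) :=
      hco.dvd_of_dvd_mul_left hdvd
    have h2 : centralizer ((P : Subgroup G) : Set G) = normalizer (P : Set G) :=
      Subgroup.eq_of_le_of_card_ge (centralizer_le_normalizer _) (Nat.le_of_dvd Nat.card_pos h1)
    refine H21.Syl15.not_simple_of_burnside P h2.ge hs ?_ ?_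
    · rw [hP17]; norm_num
    · rw [hP17]
      intro h3
      rw [← h3] at hG
      obtain ⟨a, ha⟩ := h17N
      omega

end Cfsg.Agent.H23.N35
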