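import Mathlib
import Cfsg.Agent.H17_Stab
import Cfsg.Agent.H17_Frat
import Cfsg.Agent.H1_Schmidt2
import Cfsg.Agent.H1_Coprime2
import Cfsg.Agent.H2_Fusion3
import Cfsg.Agent.H23_Basic
import Cfsg.Agent.H23_Rad
import Cfsg.Agent.H24_Tools

/-! H23_NilMax: nilpotent maximal subgroups. -/

set_option autoImplicit false
set_option linter.style.haveILetI false
set_option linter.unusedSectionVars false

namespace Cfsg.Agent.H23.NilMax

open Subgroup Cfsg
open Cfsg.Agent.H17.Base

universe u

section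

variable {G : Type u} [Group G] [Finite G] {M : Subgroup G} (hmax : IsCoatom M)
  (hcore : ∀ N : Subgroup G, N.Normal → N ≤ M → N = ⊥)

include hmax hcore in
theorem nz_eq {X : Subgroup G} (hX : X ≤ M) (hXb : X ≠ ⊥) (hXn : M ≤ Nz X) : Nz X = M := by
  rcases hmax.le_iff.1 hXn with h | h
  · exact absurd (hcore X (Subgroup.normalizer_eq_top_iff.1 h) hX) hXb
  · exact h

variable (hnil : Group.IsNilpotent M) {p : ℕ} [hp : Fact p.Prime]

/-- the Sylow subgroup of `M` -/
noncomputable def Syl (M : Subgroup G) (p : ℕ) [Fact p.Prime] : Subgroup G := ((default : Sylow p M) : Subgroup M).map M.subtype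

theorem syl_in : IsSylowIn p (Syl M p) M := isSylowIn_map _

include hnil in
theorem syl_normal : M ≤ Nz (Syl M p) := by
  have h1 : ((default : Sylow p M) : Subgroup M).Normal := inferInstance
  intro m hm
  apply H24.Tools.mem_normalizer
  rintro _ ⟨y, hy, rfl⟩
  exact ⟨⟨m, hm⟩ * y * ⟨m, hm⟩⁻¹, h1.conj_mem y hy _, rfl⟩

theorem syl_ne (hpM : p ∣ Nat.card M) : Syl M p ≠ ⊥ := by
  intro h
  have h1 := (map_eq_bot_iff_of_injective _ M.subtype_injective).1 h
  exact (default : Sylow p M).ne_bot_of_dvd_card hpM h1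

include hmax hcore hnil in
theorem syl_top (hpM : p ∣ Nat.card M) : IsSylowIn p (Syl M p) ⊤ := by
  refine ⟨le_top, syl_in.2.1, ?_⟩
  intro Q _ hQp hSQ
  by_contra hne
  have hlt : Syl M p < Q := lt_of_le_of_ne hSQ (Ne.symm hne)
  have h1 : Nz (Syl M p) = M := nz_eq hmax hcore syl_in.1 (syl_ne hpM) (syl_normal hnil)
  have h2 := H1.Schmidt.lt_inf_normalizer hlt hQp.isNilpotent
  have h3 : Q ⊓ Nz (Syl M p) ≤ M := inf_le_right.trans h1.le
  have h4 := syl_in.2.2 (Q ⊓ Nz (Syl M p)) h3 (hQp.to_le inf_le_left) h2.le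
  exact h2.ne h4.symm

include hnil in
theorem normal_of {U : Subgroup G} (hU : U ≤ Syl M p) (hUS : Syl M p ≤ Nz U) : M ≤ Nz U := by
  intro m hm
  apply H23.Basic.mem_of_prime_pow_parts
  intro x hx q b hq hxo
  haveI : Fact q.Prime := ⟨hq⟩
  have hxM : x ∈ M := (zpowers_le.2 hm) hx
  by_cases hqp : q = p
  · subst hqp
    apply hUS
    refine ⟨⟨x, hxM⟩, ?_, rfl⟩
    have h1 : ((default : Sylow q M) : Subgroup M).Normal := inferInstance
    apply H1.Nilp.mem_sylow_of_normal _ h1
    apply H24.Tools.isPGroup_zpowers (k := b)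
    rw [← hxo, ← orderOf_coe]
  · apply H24.Tools.mem_normalizer
    intro y hy
    have h1 := H1.Schmidt.commute_of_nilpotent' hnil hqp (H24.Tools.isPGroup_zpowers hxo) syl_in.2.1 (zpowers_le.2 hxM) syl_in.1
      (mem_zpowers x) (hU hy)
    rw [h1, mul_inv_cancel_right]
    exact hy

include hmax hcore hnil in
/-- class at most two: every Sylow subgroup of `M` controls its own fusion -/
theorem npc_of_class (hpM : p ∣ Nat.card M) (hcl : ∀ x ∈ Syl M p, ∀ y ∈ Syl M p, ∀ z ∈ Syl M p, (x * y * x⁻¹ * y⁻¹) * z = z * (x * y * x⁻¹ * y⁻¹)) :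
    HasNormalPComplement p G := by
  set S := Syl M p with hS
  have hSt : IsSylowIn p S ⊤ := syl_top hmax hcore hnil hpM
  have key := alperin hSt (fun A g => ∃ m ∈ M, ∀ a ∈ A, g * a * g⁻¹ = m * a * m⁻¹) ?_ ?_ ?_ ?_
  · apply H2.Fusion3.npc_of_controls_fusion hSt.toSylowTop
    intro x hx g hgx
    change x ∈ S at hx
    change g * x * g⁻¹ ∈ S at hgx
    obtain ⟨m, hm, h1⟩ := key (zpowers x) (zpowers_le.2 hx) g (by
      rintro _ ⟨_, ⟨k, rfl⟩, rfl⟩
      change g * x ^ k * g⁻¹ ∈ S
      rw [← conj_zpow]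
      exact zpow_mem hgx k)
    have h2 := h1 x (mem_zpowers x)
    -- decompose m
    obtain ⟨a, ha, b, hb, hab, -, ⟨k, hk⟩, hbo⟩ := H2.Basic.exists_p_decomp p m
    have haM : a ∈ M := (zpowers_le.2 hm) ha
    have hbM : b ∈ M := (zpowers_le.2 hm) hb
    refine ⟨a, ?_, ?_⟩
    · refine ⟨⟨a, haM⟩, ?_, rfl⟩
      have h1 : ((default : Sylow p M) : Subgroup M).Normal := inferInstance
      apply H1.Nilp.mem_sylow_of_normal _ h1
      apply H24.Tools.isPGroup_zpowers (k := k)
      rw [← hk, ← orderOf_coe]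
    · rw [h2, ← hab]
      -- b commutes with x
      have hbx : b * x = x * b := by
        have h3 : b ∈ centralizer (S : Set G) := by
          apply H23.Basic.mem_of_prime_pow_parts
          intro c hc q e hq hco
          haveI : Fact q.Prime := ⟨hq⟩
          have hqp : e ≠ 0 → q ≠ p := by
            rintro he rfl
            have h4 : orderOf c ∣ orderOf b := orderOf_dvd_of_mem_zpowers hc
            rw [hco] at h4
            have h5 := (dvd_pow_self q he).trans h4
            exact hp.out.one_lt.ne' (Nat.eq_one_of_dvd_coprimes hbo h5 dvd_rfl)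
          rw [mem_centralizer_iff]
          intro y hy
          by_cases he : e = 0
          · rw [he, pow_zero, orderOf_eq_one_iff] at hco
            rw [hco, mul_one, one_mul]
          · exact (H1.Schmidt.commute_of_nilpotent' hnil (hqp he) (H24.Tools.isPGroup_zpowers hco) syl_in.2.1
              (zpowers_le.2 ((zpowers_le.2 hbM) hc)) syl_in.1 (mem_zpowers c) hy).symm
        exact (mem_centralizer_iff.1 h3 x hx).symm
      have : a * b * x * (a * b)⁻¹ = a * (b * x * b⁻¹) * a⁻¹ := by group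
      rw [this, hbx, mul_inv_cancel_right]
  · rintro A g h _ _ _ ⟨m1, hm1, h1⟩ ⟨m2, hm2, h2⟩
    refine ⟨m2 * m1, mul_mem hm2 hm1, fun a ha => ?_⟩
    have h3 := h2 (g * a * g⁻¹) ⟨a, ha, rfl⟩
    have e1 : h * g * a * (h * g)⁻¹ = h * (g * a * g⁻¹) * h⁻¹ := by group
    rw [e1, h3, h1 a ha]
    group
  · rintro A g _ _ ⟨m, hm, h1⟩
    refine ⟨m⁻¹, inv_mem hm, ?_⟩
    rintro _ ⟨a, ha, rfl⟩
    change g⁻¹ * (g * a * g⁻¹) * g⁻¹⁻¹ = m⁻¹ * (g * a * g⁻¹) * m⁻¹⁻¹
    rw [h1 a ha]
    have e1 : m⁻¹ * (m * a * m⁻¹) * m⁻¹⁻¹ = a := by group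
    rw [e1, ← h1 a ha]
    group
  · rintro A B g hAB _ _ ⟨m, hm, h1⟩
    exact ⟨m, hm, fun a ha => h1 a (hAB ha)⟩
  · intro U hU hUS hIH n hn
    have hD : IsSylowIn p (S ⊓ Nz U ⊓ Cz U) (Cz U) :=
      hUS.inf_normal (centralizer_le_normalizer _) (by
        intro x hx
        apply H24.Tools.mem_normalizer
        intro c hc
        rw [mem_centralizer_iff] at hc ⊢
        intro u hu
        have hu' : x⁻¹ * u * x ∈ U := by
          have := (mem_normalizer_iff.1 (inv_mem hx) u).1 hu
          rwa [inv_inv] at this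
        have h1 := hc _ hu'
        calc u * (x * c * x⁻¹) = x * ((x⁻¹ * u * x) * c) * x⁻¹ := by group
          _ = x * (c * (x⁻¹ * u * x)) * x⁻¹ := by rw [h1]
          _ = x * c * x⁻¹ * u := by group)
    set D := S ⊓ Nz U ⊓ Cz U with hDdef
    have hDS : D ≤ S := inf_le_left.trans inf_le_left
    by_cases hDU : D ≤ U
    · -- U contains the derived subgroup
      have hder : ∀ x ∈ S, ∀ y ∈ S, x * y * x⁻¹ * y⁻¹ ∈ U := by
        intro x hx y hy
        apply hDU
        refine mem_inf.2 ⟨mem_inf.2 ⟨mul_mem (mul_mem (mul_mem hx hy) (inv_mem hx)) (inv_mem hy), ?_⟩, ?_⟩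
        · apply H24.Tools.mem_normalizer
          intro u hu
          rw [hcl x hx y hy u (hU hu), mul_inv_cancel_right]
          exact hu
        · rw [mem_centralizer_iff]
          intro u hu
          exact (hcl x hx y hy u (hU hu)).symm
      have hSU : S ≤ Nz U := by
        intro x hx
        apply H24.Tools.mem_normalizer
        intro u hu
        have : x * u * x⁻¹ = (x * u * x⁻¹ * u⁻¹) * u := by group
        rw [this]
        exact mul_mem (hder x hx u (hU hu)) hu
      have hUb : U ≠ ⊥ := by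
        rintro rfl
        -- then D = S
        apply syl_ne hpM (M := M) (p := p)
        rw [← hS, eq_bot_iff]
        refine le_trans ?_ hDU
        intro x hx
        refine mem_inf.2 ⟨mem_inf.2 ⟨hx, hSU hx⟩, ?_⟩
        rw [mem_centralizer_iff]
        intro u hu
        rw [Subgroup.coe_bot, Set.mem_singleton_iff] at hu
        rw [hu, one_mul, mul_one]
      have h1 : Nz U = M := nz_eq hmax hcore (hU.trans syl_in.1) hUb (normal_of hnil hU hSU)
      exact ⟨n, h1 ▸ hn, fun a _ => rfl⟩
    · obtain ⟨c, hc, hcn⟩ := frattini_arg hD (le_refl (Nz (Cz U))) n (by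
        apply H24.Tools.mem_normalizer
        intro c hc
        rw [mem_centralizer_iff] at hc ⊢
        intro u hu
        have hu' : n⁻¹ * u * n ∈ U := by
          have := (mem_normalizer_iff.1 (inv_mem hn) u).1 hu
          rwa [inv_inv] at this
        have h1 := hc _ hu'
        calc u * (n * c * n⁻¹) = n * ((n⁻¹ * u * n) * c) * n⁻¹ := by group
          _ = n * (c * (n⁻¹ * u * n)) * n⁻¹ := by rw [h1]
          _ = n * c * n⁻¹ * u := by group)
      have hcnU : c * n ∈ Nz U := mul_mem (centralizer_le_normalizer _ hc) hn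
      have hA : U ⊔ D ≤ S := sup_le hU hDS
      have hlt : Nat.card U < Nat.card (U ⊔ D : Subgroup G) := by
        apply lt_of_le_of_ne (Subgroup.card_le_of_le le_sup_left)
        intro h1
        have h2 : U = U ⊔ D := Subgroup.eq_of_le_of_card_ge le_sup_left h1.ge
        exact hDU (h2 ▸ le_sup_right)
      obtain ⟨m, hm, h1⟩ := hIH (U ⊔ D) hA hlt (c * n) (by
        rw [show cj (c * n) (U ⊔ D) = cj (c * n) U ⊔ cj (c * n) D from Subgroup.map_sup _ _ _,
          cj_eq_of_mem_Nz hcnU, cj_eq_of_mem_Nz hcn]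
        exact hA)
      refine ⟨m, hm, fun a ha => ?_⟩
      have h2 := h1 a (le_sup_left (a := U) (b := D) ha)
      have h3 : n * a * n⁻¹ ∈ U := (mem_normalizer_iff.1 hn a).1 ha
      have h4 := mem_centralizer_iff.1 hc _ h3
      have e1 : c * n * a * (c * n)⁻¹ = c * (n * a * n⁻¹) * c⁻¹ := by group
      rw [e1, ← h4, mul_inv_cancel_right] at h2
      exact h2

include hmax hcore hnil in
theorem hall : (Nat.card M).Coprime M.index := by
  rw [Nat.coprime_iff_gcd_eq_one]
  by_contra hne
  obtain ⟨q, hq, hqd⟩ := Nat.exists_prime_and_dvd hne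
  haveI : Fact q.Prime := ⟨hq⟩
  have h1 : q ∣ Nat.card M := hqd.trans (Nat.gcd_dvd_left _ _)
  have h2 : q ∣ M.index := hqd.trans (Nat.gcd_dvd_right _ _)
  have h3 := syl_top hmax hcore hnil h1
  have h4 : M.index ∣ (Syl M q).index := Subgroup.index_dvd_of_le syl_in.1
  exact h3.toSylowTop.not_dvd_index (h2.trans h4)

include hmax hcore hnil in
theorem solvable_of_npc (hnpc : ∀ q : ℕ, q.Prime → q ∣ Nat.card M → HasNormalPComplement q G) : Group.IsSolvable G := by
  have hMs : Group.IsSolvable M := by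
    haveI := hnil
    infer_instance
  obtain ⟨N, hN, hNM⟩ := H2.Fusion3.exists_normal_complement_of_forall_npc M (hall hmax hcore hnil) hnpc
  haveI := hN
  have hNb : N ≠ ⊥ := by
    rintro rfl
    apply hmax.1
    have := hNM.sup_eq_top
    rwa [bot_sup_eq] at this
  have hcop : (Nat.card M).Coprime (Nat.card N) := by
    have h1 : M.index = Nat.card N := hNM.index_eq_card
    rw [← h1]; exact hall hmax hcore hnil
  obtain ⟨r, hr, hrN⟩ := Nat.exists_prime_and_dvd (n := Nat.card N) (fun h => hNb (Subgroup.card_eq_one.1 h))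
  haveI : Fact r.Prime := ⟨hr⟩
  obtain ⟨R, hR⟩ := H1.Coprime.invariant_sylow_exists M N (by rw [normalizer_eq_top]; exact le_top) hcop (Or.inl hMs) r
  set R1 := (R : Subgroup N).map N.subtype with hR1
  have hR1b : R1 ≠ ⊥ := by
    intro h
    have h1 := (map_eq_bot_iff_of_injective _ N.subtype_injective).1 h
    exact R.ne_bot_of_dvd_card hrN h1
  have hR1p : IsPGroup r R1 := R.2.map _
  have htop : M ⊔ R1 = ⊤ := by
    rcases hmax.le_iff.1 (le_sup_left : M ≤ M ⊔ R1) with h | h
    · exact h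
    · exfalso
      have h1 : R1 ≤ M := by rw [← h]; exact le_sup_right
      have h2 : R1 ≤ M ⊓ N := le_inf h1 (map_subtype_le _)
      have h3 : N ⊓ M = ⊥ := hNM.isCompl.1.eq_bot
      rw [inf_comm, h3] at h2
      exact hR1b (eq_bot_iff.2 h2)
  have hR1N : R1.Normal := by
    rw [← Subgroup.normalizer_eq_top_iff, eq_top_iff, ← htop]
    exact sup_le hR le_normalizer
  have hRs : Group.IsSolvable R1 := H23.Rad.solvable_of_pgroup hR1p
  apply H23.Rad.solvable_quot R1 hRs
  haveI := hMs
  apply Group.isSolvable_of_surjective (f := (QuotientGroup.mk' R1).comp M.subtype)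
  intro x
  obtain ⟨g, rfl⟩ := QuotientGroup.mk'_surjective R1 x
  have hg : g ∈ M ⊔ R1 := by rw [htop]; trivial
  obtain ⟨m, hm, s, hs, rfl⟩ := (H2.Card.mem_sup_iff (show M ≤ normalizer (R1 : Set G) from hR)).1 hg
  refine ⟨⟨m, hm⟩, ?_⟩
  have : QuotientGroup.mk' R1 s = 1 := (QuotientGroup.eq_one_iff s).2 hs
  rw [map_mul, this, mul_one]
  rfl

end

theorem main (n : ℕ) (good : ∀ (G : Type u) [Group G], Subgroup G → Prop)
    (hq : ∀ (G : Type u) [Group G] [Finite G] (N : Subgroup G) [N.Normal] (M : Subgroup G), N ≤ M → good G M → good (G ⧸ N) (M.map (QuotientGroup.mk' N)))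
    (hbase : ∀ (G : Type u) [Group G] [Finite G] (M : Subgroup G), IsCoatom M → Group.IsNilpotent M →
      (∀ N : Subgroup G, N.Normal → N ≤ M → N = ⊥) → good G M → ∀ q : ℕ, q.Prime → q ∣ Nat.card M → HasNormalPComplement q G) :
    ∀ (G : Type u) [Group G] [Finite G] (M : Subgroup G), Nat.card G = n → IsCoatom M → Group.IsNilpotent M → good G M → Group.IsSolvable G := by
  induction n using Nat.strong_induction_on with
  | _ n ih =>
  intro G _ _ M hn hmax hnil hg
  by_cases hcore : ∀ N : Subgroup G, N.Normal → N ≤ M → N = ⊥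
  · exact solvable_of_npc hmax hcore hnil (hbase G M hmax hnil hcore hg)
  · push Not at hcore
    obtain ⟨N, hN, hNM, hNb⟩ := hcore
    haveI := hN
    have hNs : Group.IsSolvable N := by
      haveI : Group.IsNilpotent N := H1.Nilp.isNilpotent_of_le hNM hnil
      infer_instance
    apply H23.Rad.solvable_quot N hNs
    have hcard : Nat.card (G ⧸ N) < n := by
      have h1 : Nat.card (G ⧸ N) * Nat.card N = Nat.card G := by
        rw [mul_comm]; exact N.card_mul_index
      have h2 : 1 < Nat.card N := by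
        rw [Finite.one_lt_card_iff_nontrivial, Subgroup.nontrivial_iff_ne_bot]; exact hNb
      have h3 : 0 < Nat.card (G ⧸ N) := Nat.card_pos
      rw [← hn, ← h1]
      nlinarith
    have hs := QuotientGroup.mk'_surjective N
    refine ih _ hcard (G ⧸ N) (M.map (QuotientGroup.mk' N)) rfl ?_ ?_ (hq G N M hNM hg)
    · have hcm : (M.map (QuotientGroup.mk' N)).comap (QuotientGroup.mk' N) = M := by
        rw [comap_map_eq, QuotientGroup.ker_mk', sup_eq_left.2 hNM]
      refine ⟨?_, ?_⟩
      · intro h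
        rw [h, comap_top] at hcm
        exact hmax.1 hcm.symm
      · intro K hK
        have h1 : M < K.comap (QuotientGroup.mk' N) := by
          rw [← hcm]
          exact (Subgroup.comap_lt_comap_of_surjective hs).2 hK
        have h2 := hmax.2 _ h1
        rw [← map_comap_eq_self_of_surjective hs K, h2, ← MonoidHom.range_eq_map, MonoidHom.range_eq_top.2 hs]
    · haveI := hnil
      have e : M.map (QuotientGroup.mk' N) = ((QuotientGroup.mk' N).comp M.subtype).range := by
        rw [MonoidHom.range_comp, M.range_subtype]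
      rw [e]
      exact Group.nilpotent_of_surjective _ (MonoidHom.rangeRestrict_surjective ((QuotientGroup.mk' N).comp M.subtype))

end Cfsg.Agent.H23.NilMax
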