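import Mathlib
import Cfsg.Agent.H1_Factor
import Cfsg.Agent.H23_Rad
import Cfsg.Agent.H2_Card
import Cfsg.Agent.H2_Rank3
import Cfsg.Agent.H1_Partition

/-! H23_POrb: coprime actions on abelian groups all of whose orbits have p-power size. -/

set_option autoImplicit false
set_option linter.style.haveILetI false
set_option linter.unusedSectionVars false

namespace Cfsg.Agent.H23.POrb

open Subgroup MulAction
open scoped commutatorElement

universe u v

/-- a Sylow p-subgroup and a subgroup of p-power index factor the group -/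
theorem sylow_mul {K : Type*} [Group K] [Finite K] {p : ℕ} [hp : Fact p.Prime] (P : Sylow p K) (H : Subgroup K)
    {a : ℕ} (hH : H.index = p ^ a) (k : K) : ∃ x ∈ (P : Subgroup K), ∃ h ∈ H, k = x * h := by
  have h1 : ((P : Subgroup K).index).Coprime H.index := by
    rw [hH]
    exact Nat.Coprime.pow_right a ((hp.out.coprime_iff_not_dvd.2 P.not_dvd_index).symm)
  exact (H1.Factor.index_inf_of_coprime _ _ h1).2 k

section

variable {K : Type u} [Group K] [Finite K] {V : Type v} [AddCommGroup V] [Finite V] [DistribMulAction K V]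
  {p : ℕ} [hp : Fact p.Prime]

theorem orb (P : Sylow p K) (horb : ∀ v : V, ∃ a, (stabilizer K v).index = p ^ a) (k : K) (v : V) :
    ∃ x ∈ (P : Subgroup K), k • v = x • v := by
  obtain ⟨a, ha⟩ := horb v
  obtain ⟨x, hx, h, hh, rfl⟩ := sylow_mul P _ ha k
  exact ⟨x, hx, by rw [mul_smul, mem_stabilizer_iff.1 hh]⟩

/-- the configuration of a minimal counterexample -/
structure Cfg (p q : ℕ) (K : Type u) [Group K] [Finite K] (V : Type v) [AddCommGroup V] [Finite V]
    [DistribMulAction K V] : Prop where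
  faith : ∀ k : K, (∀ v : V, k • v = v) → k = 1
  horb : ∀ v : V, ∃ a, (stabilizer K v).index = p ^ a
  hirr : ∀ U : AddSubgroup V, (∀ k : K, ∀ u ∈ U, k • u ∈ U) → U = ⊥ ∨ U = ⊤
  hnt : Nontrivial V
  hsol : ∀ N : Subgroup K, N.Normal → N ≠ ⊤ → Group.IsSolvable N
  hns : ¬ Group.IsSolvable K
  hq : q.Prime
  hqp : q ≠ p
  hV : ∀ v : V, q • v = 0
  hK : ¬ q ∣ Nat.card K

namespace Cfg

variable {q : ℕ} (hc : Cfg p q K V)

include hc

theorem perf (N : Subgroup K) [N.Normal] (h : Group.IsSolvable (K ⧸ N)) : N = ⊤ := by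
  by_contra hN
  have := hc.hsol N inferInstance hN
  exact hc.hns (Rad.solvable_quot N this h)

theorem perfS {M : Type*} [Group M] (f : K →* M) (hM : Group.IsSolvable M) : f = 1 := by
  have h1 : Group.IsSolvable (K ⧸ f.ker) := by
    haveI := hM
    exact Group.isSolvable_of_isSolvable_injective (f := QuotientGroup.kerLift f) (QuotientGroup.kerLift_injective f)
  have h2 := hc.perf f.ker h1
  ext k
  have : k ∈ f.ker := by rw [h2]; exact mem_top _
  exact this

theorem perfC {M : Type*} [CommGroup M] (f : K →* M) : f = 1 :=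
  hc.perfS f inferInstance

theorem opn (N : Subgroup K) [hN : N.Normal] (h : ¬ p ∣ Nat.card N) : N = ⊥ := by
  rw [eq_bot_iff]
  intro n hn
  rw [mem_bot]
  refine hc.faith n fun v => ?_
  obtain ⟨a, ha⟩ := hc.horb v
  have h1 : (stabilizer K v).relIndex N ∣ p ^ a := by
    rw [← ha]; exact H2.Card.relIndex_dvd_index_of_normal_right _ _
  obtain ⟨b, -, hb⟩ := (Nat.dvd_prime_pow hp.out).1 h1
  have h2 : (stabilizer K v).relIndex N ∣ Nat.card N := relIndex_dvd_card _ _
  have h3 : (stabilizer K v).relIndex N = 1 := by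
    rcases Nat.eq_zero_or_pos b with rfl | hb0
    · simpa using hb
    · exfalso
      apply h
      refine dvd_trans ?_ h2
      rw [hb]
      exact dvd_pow_self p hb0.ne'
  exact mem_stabilizer_iff.1 (relIndex_eq_one.1 h3 hn)

theorem fpf (P : Sylow p K) {x : K} (hx : ∀ y ∈ (P : Subgroup K), x * y = y * x) (hx1 : x ≠ 1) {v : V}
    (hv : x • v = v) : v = 0 := by
  let U : AddSubgroup V :=
    { carrier := {v | x • v = v}
      zero_mem' := smul_zero x
      add_mem' := by
        intro a b ha hb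
        change x • (a + b) = a + b
        rw [smul_add, ha, hb]
      neg_mem' := by
        intro a ha
        change x • (-a) = -a
        rw [smul_neg, ha] }
  have hU : ∀ k : K, ∀ u ∈ U, k • u ∈ U := by
    intro k u hu
    obtain ⟨y, hy, h⟩ := orb P hc.horb k u
    rw [h]
    change x • y • u = y • u
    rw [← mul_smul, hx y hy, mul_smul]
    exact congrArg _ hu
  rcases hc.hirr U hU with h | h
  · have : v ∈ U := hv
    rw [h] at this
    simpa using this
  · exfalso
    apply hx1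
    refine hc.faith x fun w => ?_
    have : w ∈ U := by rw [h]; trivial
    exact this

theorem eq_zero_of_smul {n : ℕ} (hn : n.Coprime q) {v : V} (hv : n • v = 0) : v = 0 := by
  have h1 := addOrderOf_dvd_of_nsmul_eq_zero hv
  have h2 := addOrderOf_dvd_of_nsmul_eq_zero (hc.hV v)
  have h3 := Nat.eq_one_of_dvd_coprimes hn h1 h2
  exact AddMonoid.addOrderOf_eq_one_iff.1 h3


section blocks

variable (P : Sylow p K) {z a c : K}

/-- power of `z` indexed by `ZMod p` -/
def zz (p : ℕ) (z : K) (j : ZMod p) : K := z ^ j.val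

omit hc in
theorem zz_add (hz : z ^ p = 1) (i j : ZMod p) : zz p z (i + j) = zz p z i * zz p z j := by
  haveI : NeZero p := ⟨hp.out.ne_zero⟩
  unfold zz
  rw [ZMod.val_add, ← pow_add]
  exact (pow_eq_pow_mod _ hz).symm

omit hc in
theorem zz_zero : zz p z (0 : ZMod p) = 1 := by
  unfold zz; rw [ZMod.val_zero, pow_zero]

omit hc in
theorem zz_one : zz p z (1 : ZMod p) = z := by
  haveI : Fact (1 < p) := ⟨hp.out.one_lt⟩
  unfold zz; rw [ZMod.val_one, pow_one]

omit hc in
theorem zz_natCast (hz : z ^ p = 1) (n : ℕ) : zz p z (n : ZMod p) = z ^ n := by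
  haveI : NeZero p := ⟨hp.out.ne_zero⟩
  unfold zz; rw [ZMod.val_natCast]
  exact (pow_eq_pow_mod _ hz).symm

omit hc in
theorem zz_ne (hz : z ^ p = 1) (hz1 : z ≠ 1) {j : ZMod p} (hj : j ≠ 0) : zz p z j ≠ 1 := by
  haveI : NeZero p := ⟨hp.out.ne_zero⟩
  intro h
  have h1 : orderOf z = p := orderOf_eq_prime hz hz1
  have h2 : p ∣ j.val := by
    have h5 : z ^ j.val = 1 := h
    have h4 := orderOf_dvd_of_pow_eq_one h5
    rwa [h1] at h4
  have h3 := Nat.eq_zero_of_dvd_of_lt h2 (ZMod.val_lt j)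
  exact hj ((ZMod.val_eq_zero j).1 h3)

/-- the block attached to `j` -/
def W (V : Type v) [AddCommGroup V] [DistribMulAction K V] (p : ℕ) (z a : K) (j : ZMod p) : AddSubgroup V where
  carrier := {v | (a * zz p z j) • v = v}
  zero_mem' := smul_zero _
  add_mem' := by
    intro u w hu hw
    change (a * zz p z j) • (u + w) = u + w
    rw [smul_add, hu, hw]
  neg_mem' := by
    intro u hu
    change (a * zz p z j) • (-u) = -u
    rw [smul_neg, hu]

omit hc in
theorem mem_W {v : V} {j : ZMod p} : v ∈ W V p z a j ↔ (a * zz p z j) • v = v := Iff.rfl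

/-- the norm map -/
noncomputable def Nm (p : ℕ) (z a : K) (j : ZMod p) (v : V) : V := ∑ i ∈ Finset.range p, ((a * zz p z j) ^ i) • v

omit hc in
theorem Nm_add (j : ZMod p) (u w : V) : Nm p z a j (u + w) = Nm p z a j u + Nm p z a j w := by
  unfold Nm
  rw [← Finset.sum_add_distrib]
  exact Finset.sum_congr rfl fun i _ => smul_add _ _ _

omit hc in
theorem Nm_self {j : ZMod p} {v : V} (hv : v ∈ W V p z a j) : Nm p z a j v = p • v := by
  unfold Nm
  have h1 : ∀ i ∈ Finset.range p, ((a * zz p z j) ^ i) • v = v := by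
    intro i _
    induction i with
    | zero => rw [pow_zero, one_smul]
    | succ i ih => rw [pow_succ', mul_smul, ih (by simp_all; omega)]; exact hv
  rw [Finset.sum_congr rfl h1, Finset.sum_const, Finset.card_range]

omit hc in
theorem Nm_mem {j : ZMod p} (ha : (a * zz p z j) ^ p = 1) (v : V) : Nm p z a j v ∈ W V p z a j := by
  rw [mem_W]
  unfold Nm
  rw [Finset.smul_sum]
  have h1 := Finset.sum_range_succ' (fun i => ((a * zz p z j) ^ i) • v) p
  have h2 := Finset.sum_range_succ (fun i => ((a * zz p z j) ^ i) • v) p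
  rw [h2] at h1
  simp only [ha, pow_zero, one_smul] at h1
  have h3 := add_right_cancel h1
  rw [h3]
  refine Finset.sum_congr rfl fun i _ => ?_
  rw [← mul_smul, ← pow_succ']


/-- the data of the block situation -/
structure Blk (P : Sylow p K) (z a : K) : Prop where
  hz1 : z ≠ 1
  hzp : z ^ p = 1
  hzc : ∀ x ∈ (P : Subgroup K), z * x = x * z
  haP : a ∈ (P : Subgroup K)
  hap : a ^ p = 1
  hxa : ∀ x ∈ (P : Subgroup K), ∃ n : ℕ, x * a * x⁻¹ = a * z ^ n

variable {P}

omit hc in
theorem Blk.zz_comm (hb : Blk P z a) (j : ZMod p) : Commute a (zz p z j) := by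
  have h : Commute a z := (hb.hzc a hb.haP).symm
  exact h.pow_right _

omit hc in
theorem Blk.pow_eq (hb : Blk P z a) (j : ZMod p) : (a * zz p z j) ^ p = 1 := by
  rw [(hb.zz_comm j).mul_pow, hb.hap, one_mul]
  unfold zz
  rw [← pow_mul, mul_comm, pow_mul, hb.hzp, one_pow]

omit hc in
theorem Blk.zz_central (hb : Blk P z a) (j : ZMod p) : ∀ x ∈ (P : Subgroup K), zz p z j * x = x * zz p z j := by
  intro x hx
  have h : Commute z x := hb.hzc x hx
  exact h.pow_left _

theorem sum_Nm (hb : Blk P z a) (v : V) : ∑ j : ZMod p, Nm p z a j v = p • v := by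
  classical
  haveI : NeZero p := ⟨hp.out.ne_zero⟩
  unfold Nm
  rw [Finset.sum_comm]
  have h0 : ∀ i ∈ Finset.range p, i ≠ 0 → ∑ j : ZMod p, ((a * zz p z j) ^ i) • v = 0 := by
    intro i hi hi0
    have h1 : ∀ j : ZMod p, ((a * zz p z j) ^ i) • v = a ^ i • ((zz p z j) ^ i • v) := by
      intro j
      rw [(hb.zz_comm j).mul_pow, mul_smul]
    rw [Finset.sum_congr rfl fun j _ => h1 j, ← Finset.smul_sum]
    have h2 : z ^ i • ∑ j : ZMod p, ((zz p z j) ^ i • v) = ∑ j : ZMod p, ((zz p z j) ^ i • v) := by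
      rw [Finset.smul_sum]
      refine Fintype.sum_equiv (Equiv.addRight (1 : ZMod p)) _ _ ?_
      intro j
      rw [← mul_smul]
      congr 1
      change z ^ i * zz p z j ^ i = zz p z (j + 1) ^ i
      rw [zz_add hb.hzp, zz_one]
      have h3 : Commute z (zz p z j) := (Commute.refl z).pow_right _
      rw [h3.symm.mul_pow, (h3.pow_pow i i).eq]
    have h3 : z ^ i ≠ 1 := by
      intro h
      have h1 : orderOf z = p := orderOf_eq_prime hb.hzp hb.hz1
      have h4 := orderOf_dvd_of_pow_eq_one h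
      rw [h1] at h4
      exact hi0 (Nat.eq_zero_of_dvd_of_lt h4 (Finset.mem_range.1 hi))
    have h4 : ∀ x ∈ (P : Subgroup K), z ^ i * x = x * z ^ i := by
      intro x hx
      have h : Commute z x := hb.hzc x hx
      exact h.pow_left _
    rw [hc.fpf P h4 h3 h2, smul_zero]
  rw [Finset.sum_eq_single_of_mem 0 (Finset.mem_range.2 hp.out.pos) h0]
  simp only [pow_zero, one_smul]
  rw [Finset.sum_const, Finset.card_univ, ZMod.card]

theorem exists_ne (hb : Blk P z a) : ∃ j : ZMod p, ∃ v ∈ W V p z a j, v ≠ 0 := by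
  by_contra hcon
  push Not at hcon
  obtain ⟨v, hv⟩ := @_root_.exists_ne V hc.hnt 0
  apply hv
  have h1 := hc.sum_Nm hb v
  rw [Finset.sum_eq_zero (fun j _ => hcon j _ (Nm_mem (hb.pow_eq j) v))] at h1
  exact hc.eq_zero_of_smul ((Nat.coprime_primes hp.out hc.hq).2 hc.hqp.symm) h1.symm

/-- a central `a` is impossible -/
theorem not_central (hb : Blk P z a) (ha : ∀ j : ZMod p, a * zz p z j ≠ 1)
    (hac : ∀ x ∈ (P : Subgroup K), a * x = x * a) : False := by
  obtain ⟨j, v, hv, hv0⟩ := hc.exists_ne hb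
  apply hv0
  refine hc.fpf P (x := a * zz p z j) ?_ (ha j) hv
  intro x hx
  rw [mul_assoc, hb.zz_central j x hx, ← mul_assoc, hac x hx, mul_assoc]

omit hc in
theorem smul_mem_W (hb : Blk P z a) {x : K} (_hx : x ∈ (P : Subgroup K)) {n : ℕ} (hn : x * a * x⁻¹ = a * z ^ n)
    (hxz : z * x = x * z) {j : ZMod p} {v : V} (hv : v ∈ W V p z a j) : x • v ∈ W V p z a (j + n) := by
  rw [mem_W] at hv ⊢
  have h1 : a * zz p z (j + n) * x = x * (a * zz p z j) := by
    have h2 : Commute x (zz p z j) := by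
      have : Commute x z := hxz.symm
      exact this.pow_right _
    rw [zz_add hb.hzp, zz_natCast hb.hzp]
    have h3 : Commute (zz p z j) (z ^ n) := (Commute.refl z).pow_pow _ _
    rw [h3.eq, ← mul_assoc a, ← hn, mul_assoc, h2.symm.eq]
    group
  rw [← mul_smul, h1, mul_smul, hv]

theorem Nm_other (hb : Blk P z a) {j l : ZMod p} (hjl : l ≠ j) {v : V} (hv : v ∈ W V p z a l) : Nm p z a j v = 0 := by
  have h1 := Nm_mem (hb.pow_eq j) v
  set u := Nm p z a j v with hu
  have hcomm : Commute (a * zz p z l) (a * zz p z j) := by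
    have h3 : Commute (zz p z l) (zz p z j) := (Commute.refl z).pow_pow _ _
    exact ((Commute.refl a).mul_left (hb.zz_comm l).symm).mul_right (((hb.zz_comm j)).mul_left h3)
  have h2 : u ∈ W V p z a l := by
    rw [mem_W, hu]
    unfold Nm
    rw [Finset.smul_sum]
    refine Finset.sum_congr rfl fun i _ => ?_
    rw [← mul_smul, (hcomm.pow_right i).eq, mul_smul, mem_W.1 hv]
  have h3 : zz p z (l - j) • u = u := by
    have h4 : a * zz p z l = (a * zz p z j) * zz p z (l - j) := by
      rw [mul_assoc, ← zz_add hb.hzp]; congr 2; ring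
    have h5 := mem_W.1 h2
    rw [h4, mul_smul] at h5
    have h6 := mem_W.1 h1
    have h7 : (a * zz p z j) • (zz p z (l - j) • u) = (a * zz p z j) • u := by rw [h5, h6]
    exact smul_left_cancel _ h7
  exact hc.fpf P (hb.zz_central _) (zz_ne hb.hzp hb.hz1 (sub_ne_zero.2 hjl)) h3

theorem p_smul_eq_zero {v : V} (h : p • v = 0) : v = 0 :=
  hc.eq_zero_of_smul ((Nat.coprime_primes hp.out hc.hq).2 hc.hqp.symm) h

theorem uniq (hb : Blk P z a) {j l : ZMod p} {v : V} (h1 : v ∈ W V p z a j) (h2 : v ∈ W V p z a l) (hv : v ≠ 0) : j = l := by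
  by_contra hne
  apply hv
  apply hc.p_smul_eq_zero
  rw [← Nm_self h1, hc.Nm_other hb (fun h => hne h.symm) h2]


/-- blocks situation with an element moving `a` -/
structure Blk' (P : Sylow p K) (z a c : K) : Prop extends Blk P z a where
  hcP : c ∈ (P : Subgroup K)
  hca : c * a * c⁻¹ = a * z

omit hc in
theorem Blk'.move (hb : Blk' P z a c) {j : ZMod p} {v : V} (hv : v ∈ W V p z a j) : c • v ∈ W V p z a (j + 1) := by
  have := smul_mem_W hb.toBlk hb.hcP (n := 1) (by rw [pow_one]; exact hb.hca) (hb.hzc c hb.hcP) hv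
  rwa [Nat.cast_one] at this

theorem W_ne (hb : Blk' P z a c) (j : ZMod p) : ∃ v ∈ W V p z a j, v ≠ 0 := by
  haveI : NeZero p := ⟨hp.out.ne_zero⟩
  obtain ⟨j₀, v, hv, hv0⟩ := hc.exists_ne hb.toBlk
  have h1 : ∀ n : ℕ, ∃ v ∈ W V p z a (j₀ + n), v ≠ 0 := by
    intro n
    induction n with
    | zero => exact ⟨v, by rwa [Nat.cast_zero, add_zero], hv0⟩
    | succ n ih =>
      obtain ⟨w, hw, hw0⟩ := ih
      refine ⟨c • w, ?_, ?_⟩
      · rw [Nat.cast_succ, ← add_assoc]; exact hb.move hw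
      · intro h; exact hw0 ((smul_eq_zero_iff_eq c).1 h)
  obtain ⟨w, hw, hw0⟩ := h1 (j - j₀).val
  rw [ZMod.natCast_zmod_val, add_sub_cancel] at hw
  exact ⟨w, hw, hw0⟩

/-- Sylow elements act on indices by translation -/
theorem trans_mem (hb : Blk' P z a c) {x : K} (hx : x ∈ (P : Subgroup K)) :
    ∃ s : ZMod p, ∀ j : ZMod p, ∀ v ∈ W V p z a j, x • v ∈ W V p z a (j + s) := by
  obtain ⟨n, hn⟩ := hb.hxa x hx
  exact ⟨n, fun j v hv => smul_mem_W hb.toBlk hx hn (hb.hzc x hx) hv⟩

theorem act (hb : Blk' P z a c) (k : K) (j : ZMod p) : ∃ l : ZMod p, ∀ v ∈ W V p z a j, k • v ∈ W V p z a l := by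
  obtain ⟨v₀, hv₀, hv₀0⟩ := hc.W_ne hb j
  have hk : ∀ v : V, v ∈ W V p z a j → ∃ l, k • v ∈ W V p z a l := by
    intro v hv
    obtain ⟨x, hx, h⟩ := orb P hc.horb k v
    obtain ⟨s, hs⟩ := hc.trans_mem hb hx
    exact ⟨j + s, by rw [h]; exact hs j v hv⟩
  obtain ⟨l, hl⟩ := hk v₀ hv₀
  refine ⟨l, fun w hw => ?_⟩
  obtain ⟨m, hm⟩ := hk w hw
  by_cases hml : m = l
  · rwa [← hml]
  · obtain ⟨n, hn⟩ := hk (v₀ + w) ((W V p z a j).add_mem hv₀ hw)
    rw [smul_add] at hn
    have e1 : Nm p z a l (k • v₀ + k • w) = p • (k • v₀) := by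
      rw [Nm_add, Nm_self hl, hc.Nm_other hb.toBlk hml hm, add_zero]
    have e2 : Nm p z a m (k • v₀ + k • w) = p • (k • w) := by
      rw [Nm_add, Nm_self hm, hc.Nm_other hb.toBlk (fun h => hml h.symm) hl, zero_add]
    have hnl : n = l := by
      by_contra hne
      rw [hc.Nm_other hb.toBlk hne hn] at e1
      exact hv₀0 ((smul_eq_zero_iff_eq k).1 (hc.p_smul_eq_zero e1.symm))
    rw [hnl] at hn
    rw [hc.Nm_other hb.toBlk (fun h => hml h.symm) hn] at e2
    rw [hc.p_smul_eq_zero e2.symm]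
    exact (W V p z a l).zero_mem

/-- the action on indices -/
noncomputable def sg (hb : Blk' P z a c) (k : K) (j : ZMod p) : ZMod p := (hc.act hb k j).choose

theorem sg_spec (hb : Blk' P z a c) (k : K) (j : ZMod p) {v : V} (hv : v ∈ W V p z a j) :
    k • v ∈ W V p z a (hc.sg hb k j) := (hc.act hb k j).choose_spec v hv

theorem sg_eq (hb : Blk' P z a c) {k : K} {j l : ZMod p} {v : V} (hv : v ∈ W V p z a j) (hv0 : v ≠ 0)
    (h : k • v ∈ W V p z a l) : hc.sg hb k j = l :=
  hc.uniq hb.toBlk (hc.sg_spec hb k j hv) h (fun h0 => hv0 ((smul_eq_zero_iff_eq k).1 h0))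

theorem sg_mul (hb : Blk' P z a c) (k k' : K) (j : ZMod p) : hc.sg hb (k * k') j = hc.sg hb k (hc.sg hb k' j) := by
  obtain ⟨v, hv, hv0⟩ := hc.W_ne hb j
  refine hc.sg_eq hb hv hv0 ?_
  rw [mul_smul]
  exact hc.sg_spec hb k _ (hc.sg_spec hb k' j hv)

theorem sg_one (hb : Blk' P z a c) (j : ZMod p) : hc.sg hb 1 j = j := by
  obtain ⟨v, hv, hv0⟩ := hc.W_ne hb j
  exact hc.sg_eq hb hv hv0 (by rwa [one_smul])

theorem sg_inj (hb : Blk' P z a c) (k : K) {i j : ZMod p} (h : hc.sg hb k i = hc.sg hb k j) : i = j := by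
  rw [← hc.sg_one hb i, ← hc.sg_one hb j, ← inv_mul_cancel k, hc.sg_mul, hc.sg_mul, h]

theorem sg_c (hb : Blk' P z a c) (j : ZMod p) : hc.sg hb c j = j + 1 := by
  obtain ⟨v, hv, hv0⟩ := hc.W_ne hb j
  exact hc.sg_eq hb hv hv0 (hb.move hv)

/-- adjacent blocks go to adjacent blocks -/
theorem edge (hb : Blk' P z a c) (k : K) (j : ZMod p) :
    hc.sg hb k (j + 1) = hc.sg hb k j + 1 ∨ hc.sg hb k (j + 1) = hc.sg hb k j - 1 := by
  obtain ⟨v, hv, hv0⟩ := hc.W_ne hb j
  obtain ⟨w, hw, hw0⟩ := hc.W_ne hb (j + 1)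
  obtain ⟨x, hx, h⟩ := orb P hc.horb k (v + w)
  obtain ⟨s, hs⟩ := hc.trans_mem hb hx
  rw [smul_add, smul_add] at h
  have k1 := hc.sg_spec hb k j hv
  have k2 := hc.sg_spec hb k (j + 1) hw
  have k3 := hs j v hv
  have k4 := hs (j + 1) w hw
  set l := hc.sg hb k j with hl
  set m := hc.sg hb k (j + 1) with hm
  have hone : (1 : ZMod p) ≠ 0 := by
    haveI : Fact (1 < p) := ⟨hp.out.one_lt⟩
    exact one_ne_zero
  have hlm : l ≠ m := by
    intro h'
    have := hc.sg_inj hb k h'
    exact hone (by simpa using this.symm)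
  have hz : ∀ u : V, k • u = 0 → u = 0 := fun u hu => (smul_eq_zero_iff_eq k).1 hu
  have hz' : ∀ u : V, x • u = 0 → u = 0 := fun u hu => (smul_eq_zero_iff_eq x).1 hu
  have hll : l = j + s ∨ l = j + 1 + s := by
    by_contra hcon
    push Not at hcon
    have e1 := congrArg (Nm p z a l) h
    rw [Nm_add, Nm_add, Nm_self k1, hc.Nm_other hb.toBlk hlm.symm k2, hc.Nm_other hb.toBlk hcon.1.symm k3,
      hc.Nm_other hb.toBlk hcon.2.symm k4, add_zero, add_zero] at e1
    exact hv0 (hz _ (hc.p_smul_eq_zero e1))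
  have hmm : m = j + s ∨ m = j + 1 + s := by
    by_contra hcon
    push Not at hcon
    have e1 := congrArg (Nm p z a m) h
    rw [Nm_add, Nm_add, Nm_self k2, hc.Nm_other hb.toBlk hlm k1, hc.Nm_other hb.toBlk hcon.1.symm k3,
      hc.Nm_other hb.toBlk hcon.2.symm k4, zero_add, add_zero] at e1
    exact hw0 (hz _ (hc.p_smul_eq_zero e1))
  rcases hll with h1 | h1 <;> rcases hmm with h2 | h2
  · exact absurd (h1.trans h2.symm) hlm
  · left; rw [h1, h2]; ring
  · right; rw [h1, h2]; ring
  · exact absurd (h1.trans h2.symm) hlm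

/-- the sign is constant -/
theorem affine (hb : Blk' P z a c) (k : K) : ∃ d : (ZMod p)ˣ, ∀ j : ZMod p, hc.sg hb k j = hc.sg hb k 0 + d * j := by
  haveI : NeZero p := ⟨hp.out.ne_zero⟩
  have key : ∃ d : (ZMod p)ˣ, ∀ j : ZMod p, hc.sg hb k (j + 1) = hc.sg hb k j + d := by
    have hstep : ∀ (d : (ZMod p)ˣ), (d = 1 ∨ d = -1) → ∀ j, hc.sg hb k (j + 1) = hc.sg hb k j + d →
        hc.sg hb k (j + 1 + 1) = hc.sg hb k (j + 1) + d := by
      intro d hd j hj
      have hinj : hc.sg hb k (j + 1 + 1) = hc.sg hb k j → (2 : ZMod p) = 0 := by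
        intro h
        have := hc.sg_inj hb k h
        have h2 : j + 2 = j := by
          have e : j + 2 = j + 1 + 1 := by ring
          rw [e]; exact this
        simpa using h2
      rcases hd with rfl | rfl
      · rcases hc.edge hb k (j + 1) with h | h
        · rw [h]; simp
        · have h3 := hinj (by rw [h, hj]; simp)
          rw [h]
          have : (-1 : ZMod p) = 1 := by
            rw [neg_eq_iff_add_eq_zero, ← h3]; ring
          rw [sub_eq_add_neg, this]; simp
      · rcases hc.edge hb k (j + 1) with h | h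
        · have h3 := hinj (by rw [h, hj]; simp)
          rw [h]
          have : (-1 : ZMod p) = 1 := by
            rw [neg_eq_iff_add_eq_zero, ← h3]; ring
          push_cast
          rw [this]
        · rw [h]; push_cast; ring
    have hall : ∀ (d : (ZMod p)ˣ), (d = 1 ∨ d = -1) → hc.sg hb k (0 + 1) = hc.sg hb k 0 + d →
        ∀ n : ℕ, hc.sg hb k ((n : ZMod p) + 1) = hc.sg hb k n + d := by
      intro d hd h0 n
      induction n with
      | zero => simpa using h0
      | succ n ih =>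
        have := hstep d hd n ih
        push_cast
        exact this
    rcases hc.edge hb k 0 with h | h
    · refine ⟨1, fun j => ?_⟩
      have := hall 1 (Or.inl rfl) (by rw [h]; simp) j.val
      rwa [ZMod.natCast_zmod_val] at this
    · refine ⟨-1, fun j => ?_⟩
      have := hall (-1) (Or.inr rfl) (by rw [h]; push_cast; ring) j.val
      rwa [ZMod.natCast_zmod_val] at this
  obtain ⟨d, hd⟩ := key
  refine ⟨d, fun j => ?_⟩
  have hall : ∀ n : ℕ, hc.sg hb k (n : ZMod p) = hc.sg hb k 0 + d * n := by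
    intro n
    induction n with
    | zero => simp
    | succ n ih => push_cast; rw [hd, ih]; ring
  have := hall j.val
  rwa [ZMod.natCast_zmod_val] at this

theorem blk_false (hb : Blk' P z a c) : False := by
  choose d hd using fun k => hc.affine hb k
  have hone : (1 : ZMod p) ≠ 0 := by
    haveI : Fact (1 < p) := ⟨hp.out.one_lt⟩
    exact one_ne_zero
  let f : K →* (ZMod p)ˣ :=
    { toFun := d
      map_one' := by
        have h1 := hd 1 1
        rw [hc.sg_one, hc.sg_one, zero_add, mul_one] at h1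
        exact Units.ext h1.symm
      map_mul' := by
        intro k k'
        have h1 := hd (k * k') 1
        have h0 := hc.sg_mul hb k k' 0
        rw [hc.sg_mul, h0, hd k (hc.sg hb k' 1), hd k (hc.sg hb k' 0), hd k' 1] at h1
        apply Units.ext
        push_cast
        linear_combination -h1 }
  have hf := hc.perfC f
  have hd1 : ∀ k, d k = 1 := fun k => DFunLike.congr_fun hf k
  let t : K →* Multiplicative (ZMod p) :=
    { toFun := fun k => Multiplicative.ofAdd (hc.sg hb k 0)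
      map_one' := by
        change Multiplicative.ofAdd (hc.sg hb 1 0) = 1
        rw [hc.sg_one]; rfl
      map_mul' := by
        intro k k'
        change Multiplicative.ofAdd (hc.sg hb (k * k') 0) = Multiplicative.ofAdd (hc.sg hb k 0) * Multiplicative.ofAdd (hc.sg hb k' 0)
        rw [hc.sg_mul, hd k (hc.sg hb k' 0), hd1, ← ofAdd_add]
        simp }
  have ht := hc.perfC t
  have h1 : hc.sg hb c 0 = 0 := by
    have := DFunLike.congr_fun ht c
    exact Multiplicative.ofAdd.injective this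
  rw [hc.sg_c, zero_add] at h1
  exact hone h1

end blocks


omit hc in
theorem exists_pow_of_mem {G : Type*} [Group G] [Finite G] {z x : G} (h : x ∈ zpowers z) : ∃ n : ℕ, x = z ^ n := by
  obtain ⟨n, hn⟩ := (mem_powers_iff_mem_zpowers).2 h
  exact ⟨n, hn.symm⟩

/-- every abelian normal subgroup of the Sylow subgroup is cyclic -/
theorem cyc (P : Sylow p K) (A : Subgroup P) (hA : A.Normal) (hAc : IsMulCommutative A) : IsCyclic A := by
  classical
  by_contra hncyc
  have hPp : IsPGroup p P := P.2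
  let Ω : Subgroup P :=
    { carrier := {x | x ∈ A ∧ x ^ p = 1}
      one_mem' := ⟨A.one_mem, one_pow _⟩
      mul_mem' := by
        rintro x y ⟨hx, hx1⟩ ⟨hy, hy1⟩
        have h : Commute x y := congrArg Subtype.val (hAc.is_comm.comm ⟨x, hx⟩ ⟨y, hy⟩)
        exact ⟨A.mul_mem hx hy, by rw [h.mul_pow, hx1, hy1, one_mul]⟩
      inv_mem' := by
        rintro x ⟨hx, hx1⟩
        exact ⟨A.inv_mem hx, by rw [inv_pow, hx1, inv_one]⟩ }
  have hΩn : Ω.Normal := ⟨by
    rintro x ⟨hx, hx1⟩ g
    refine ⟨hA.conj_mem x hx g, ?_⟩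
    have : (g * x * g⁻¹) ^ p = g * x ^ p * g⁻¹ := conj_pow
    rw [this, hx1, mul_one, mul_inv_cancel]⟩
  obtain ⟨q', B, hq', hBA, hBc, hBe⟩ := H1.Partition.exists_rank_two A hncyc
  have hq'p : q' = p := by
    obtain ⟨n, hn⟩ := IsPGroup.iff_card.1 (hPp.to_subgroup B)
    rw [hn] at hBc
    have h1 : q' ∣ p ^ n := by rw [hBc]; exact dvd_pow_self _ two_ne_zero
    exact (Nat.prime_dvd_prime_iff_eq hq' hp.out).1 (hq'.dvd_of_dvd_pow h1)
  subst hq'p
  have hBΩ : B ≤ Ω := fun x hx => ⟨hBA hx, hBe x hx⟩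
  obtain ⟨n, hn⟩ := IsPGroup.iff_card.1 (hPp.to_subgroup Ω)
  have h2n : 2 ≤ n := by
    have h1 := card_dvd_of_le hBΩ
    rw [hBc, hn] at h1
    exact (Nat.pow_dvd_pow_iff_le_right hp.out.one_lt).1 h1
  obtain ⟨E, hEn, hEΩ, hEc⟩ := H2.Rank3.exists_normal_card hPp hΩn hn h2n
  haveI := hEn
  have hEcomm : ∀ x ∈ E, ∀ y ∈ E, x * y = y * x := fun x hx y hy =>
    congrArg Subtype.val (hAc.is_comm.comm ⟨x, (hEΩ hx).1⟩ ⟨y, (hEΩ hy).1⟩)
  have hEp : ∀ x ∈ E, x ^ q' = 1 := fun x hx => (hEΩ hx).2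
  by_cases hcen : E ≤ center P
  · -- central case
    have hE1 : E ≠ ⊥ := by
      rintro rfl
      rw [card_bot] at hEc
      have := Nat.one_lt_pow two_ne_zero hp.out.one_lt
      omega
    obtain ⟨z, hz, hz1⟩ := (Subgroup.ne_bot_iff_exists_ne_one).1 hE1 |>.elim (fun x hx => (⟨x.1, x.2, fun h => hx (Subtype.ext h)⟩ : ∃ z, z ∈ E ∧ z ≠ 1))
    obtain ⟨a, ha, haz⟩ : ∃ a ∈ E, a ∉ zpowers z := by
      by_contra hcon
      push Not at hcon
      have h1 := card_dvd_of_le (show E ≤ zpowers z from hcon)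
      rw [hEc, Nat.card_zpowers, orderOf_eq_prime (hEp z hz) hz1] at h1
      have := Nat.le_of_dvd hp.out.pos h1
      have h3 := hp.out.one_lt
      nlinarith
    have hcz : ∀ x ∈ (P : Subgroup K), (z : K) * x = x * z := fun x hx =>
      congrArg Subtype.val ((mem_center_iff.1 (hcen hz) ⟨x, hx⟩).symm)
    have hca : ∀ x ∈ (P : Subgroup K), (a : K) * x = x * a := fun x hx =>
      congrArg Subtype.val ((mem_center_iff.1 (hcen ha) ⟨x, hx⟩).symm)
    have hb : Blk P (z : K) (a : K) :=
      { hz1 := fun h => hz1 (Subtype.ext h)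
        hzp := by rw [← Subgroup.coe_pow, hEp z hz]; rfl
        hzc := hcz
        haP := a.2
        hap := by rw [← Subgroup.coe_pow, hEp a ha]; rfl
        hxa := fun x hx => ⟨0, by rw [pow_zero, mul_one, ← hca x hx, mul_inv_cancel_right]⟩ }
    refine hc.not_central hb ?_ hca
    intro j h
    apply haz
    have h1 : (a : K) = ((z : K) ^ j.val)⁻¹ := eq_inv_of_mul_eq_one_left h
    have h2 : a = (z ^ j.val)⁻¹ := Subtype.ext (by rw [h1]; simp)
    rw [h2]
    exact inv_mem (pow_mem (mem_zpowers z) _)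
  · -- noncentral case
    have hlt := H2.PGroup.commutator_top_lt hPp (M := E) (by rintro rfl; exact hcen bot_le)
    set Z' := ⁅E, (⊤ : Subgroup P)⁆ with hZ'
    have hZ'c : Nat.card Z' ∣ q' := by
      obtain ⟨m, hm⟩ := IsPGroup.iff_card.1 (hPp.to_subgroup Z')
      have h1 := card_dvd_of_le hlt.le
      rw [hm, hEc, Nat.pow_dvd_pow_iff_le_right hp.out.one_lt] at h1
      have h2 : m ≠ 2 := by
        rintro rfl
        exact hlt.ne (eq_of_le_of_card_ge hlt.le (by rw [hm, hEc]))
      have h3 : m ≤ 1 := by omega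
      rw [hm]
      calc q' ^ m ∣ q' ^ 1 := pow_dvd_pow _ h3
        _ = q' := pow_one _
    obtain ⟨a, ha, hac⟩ := SetLike.not_le_iff_exists.1 hcen
    rw [mem_center_iff] at hac
    push Not at hac
    obtain ⟨c, hc'⟩ := hac
    set z := a⁻¹ * (c * a * c⁻¹) with hz
    have hmem : ∀ x : P, a⁻¹ * (x * a * x⁻¹) ∈ Z' := by
      intro x
      have h1 : ⁅a⁻¹, x⁆ ∈ Z' := commutator_mem_commutator (E.inv_mem ha) (mem_top x)
      rw [commutatorElement_def, inv_inv] at h1
      simpa [mul_assoc] using h1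
    have hzZ : z ∈ Z' := hmem c
    have hz1 : z ≠ 1 := by
      intro h
      rw [hz, inv_mul_eq_one, eq_mul_inv_iff_mul_eq] at h
      exact hc' h.symm
    have hzE : z ∈ E := hlt.le hzZ
    have hZz : Z' = zpowers z := by
      symm
      apply eq_of_le_of_card_ge ((zpowers_le).2 hzZ)
      rw [Nat.card_zpowers, orderOf_eq_prime (hEp z hzE) hz1]
      exact Nat.le_of_dvd hp.out.pos hZ'c
    have hZ'cen : Z' ≤ center P := by
      have h1 := H2.PGroup.inf_center_ne_bot hPp (M := Z') (by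
        intro h
        rw [h, mem_bot] at hzZ
        exact hz1 hzZ)
      have h2 : Z' ⊓ center P = Z' := by
        apply eq_of_le_of_card_ge inf_le_left
        have h3 : Nat.card ↥(Z' ⊓ center P) ∣ q' := (card_dvd_of_le inf_le_left).trans hZ'c
        rcases (Nat.dvd_prime hp.out).1 h3 with h4 | h4
        · exact absurd (Subgroup.card_eq_one.1 h4) h1
        · rw [h4]; exact Nat.le_of_dvd hp.out.pos hZ'c
      rw [← h2]; exact inf_le_right
    have hb : Blk' P (z : K) (a : K) (c : K) :=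
      { hz1 := fun h => hz1 (Subtype.ext h)
        hzp := by rw [← Subgroup.coe_pow, hEp z hzE]; rfl
        hzc := fun x hx => congrArg Subtype.val ((mem_center_iff.1 (hZ'cen hzZ) ⟨x, hx⟩).symm)
        haP := a.2
        hap := by rw [← Subgroup.coe_pow, hEp a ha]; rfl
        hxa := by
          intro x hx
          have h1 := hmem ⟨x, hx⟩
          rw [hZz] at h1
          obtain ⟨n, hn⟩ := exists_pow_of_mem h1
          refine ⟨n, ?_⟩
          have h2 := congrArg (Subtype.val) hn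
          push_cast at h2
          rw [← h2]
          group
        hcP := c.2
        hca := by
          have : (z : K) = (a : K)⁻¹ * (c * a * (c : K)⁻¹) := by rw [hz]; push_cast; rfl
          rw [this]; group }
    exact hc.blk_false hb

end Cfg

end

end Cfsg.Agent.H23.POrb
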