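import Cfsg.Agent.H25_DihGrp
set_option autoImplicit false
set_option maxHeartbeats 1000000

namespace Cfsg.Agent.H25.DihGrp2
open Cfsg Cfsg.Agent.H10.PPart Cfsg.Agent.H25.DihCnt Cfsg.Agent.H25.DihGrp

/-- the automorphism group of a cyclic 2-group is a 2-group -/
theorem aut_zpowers {G : Type*} [Group G] [Finite G] {x : G} (hx : ∃ k : ℕ, orderOf x = 2 ^ k) :
    IsPGroup 2 (MulAut (Subgroup.zpowers x)) := by
  obtain ⟨k, hk⟩ := hx
  have h1 := IsCyclic.card_mulAut (G := Subgroup.zpowers x)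
  rw [Nat.card_zpowers, hk] at h1
  rcases Nat.eq_zero_or_pos k with h0 | h0
  · apply IsPGroup.of_card (n := 0)
    rw [h1, h0]; simp
  · apply IsPGroup.of_card (n := k - 1)
    rw [h1, Nat.totient_prime_pow Nat.prime_two h0]; simp

theorem mem_normalizer_zpowers {G : Type*} [Group G] [Finite G] {x g : G}
    (h : g * x * g⁻¹ ∈ Subgroup.zpowers x) :
    g ∈ Subgroup.normalizer (Subgroup.zpowers x : Set G) := by
  -- conjugation maps ⟨x⟩ into itself
  have hle : (Subgroup.zpowers x).map (MulAut.conj g).toMonoidHom ≤ Subgroup.zpowers x := by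
    rw [MonoidHom.map_zpowers, Subgroup.zpowers_le]
    exact h
  have heq : (Subgroup.zpowers x).map (MulAut.conj g).toMonoidHom = Subgroup.zpowers x := by
    apply Subgroup.eq_of_le_of_card_ge hle
    rw [Subgroup.card_map_of_injective (MulAut.conj g).injective]
  rw [Subgroup.mem_normalizer_iff]
  intro y
  constructor
  · intro hy
    rw [← heq]
    exact ⟨y, hy, rfl⟩
  · intro hy
    rw [← heq] at hy
    obtain ⟨z, hz, hzy⟩ := hy
    have : g * z * g⁻¹ = g * y * g⁻¹ := hzy
    have h2 : z = y := mul_left_cancel (mul_right_cancel this)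
    rw [← h2]; exact hz

theorem comm_of_odd {G : Type*} [Group G] [Finite G] {x g : G} (hx : ∃ k : ℕ, orderOf x = 2 ^ k)
    (h : g * x * g⁻¹ ∈ Subgroup.zpowers x) (hg : (orderOf g).Coprime 2) : g * x = x * g := by
  -- the automorphism induced by g
  have hN := mem_normalizer_zpowers h
  let N := Subgroup.normalizer (Subgroup.zpowers x : Set G)
  let f : N →* MulAut (Subgroup.zpowers x) := Subgroup.normalizerMonoidHom (Subgroup.zpowers x)
  obtain ⟨k, hk⟩ := aut_zpowers hx (f ⟨g, hN⟩)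
  have h1 : orderOf (f ⟨g, hN⟩) ∣ 2 ^ k := orderOf_dvd_of_pow_eq_one hk
  have h2 : orderOf (f ⟨g, hN⟩) ∣ orderOf g := by
    have := orderOf_map_dvd f ⟨g, hN⟩
    rwa [Subgroup.orderOf_mk] at this
  have h3 : f ⟨g, hN⟩ = 1 := by
    rw [← orderOf_eq_one_iff]
    exact Nat.eq_one_of_dvd_coprimes (hg.pow_right k) h2 h1
  have h4 := congrArg (fun α : MulAut (Subgroup.zpowers x) =>
    ((α ⟨x, Subgroup.mem_zpowers x⟩ : Subgroup.zpowers x) : G)) h3
  have h5 : g * x * g⁻¹ = x := h4
  rw [mul_inv_eq_iff_eq_mul] at h5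
  exact h5

/-- elements of the same order in a cyclic subgroup generate the same subgroup -/
theorem zpowers_eq_of_order {G : Type*} [Group G] [Finite G] {s x y : G}
    (hx : x ∈ Subgroup.zpowers s) (hy : y ∈ Subgroup.zpowers s) (h : orderOf x = orderOf y) :
    Subgroup.zpowers x = Subgroup.zpowers y := by
  classical
  haveI : Fintype (Subgroup.zpowers s) := Fintype.ofFinite _
  have key : ∀ z : Subgroup.zpowers s, orderOf z = orderOf x →
      ((Subgroup.zpowers z : Subgroup (Subgroup.zpowers s)) : Set (Subgroup.zpowers s)) =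
        {b | b ^ orderOf x = 1} := by
    intro z hz
    apply Set.eq_of_subset_of_ncard_le
    · rintro b ⟨k, rfl⟩
      show (z ^ k) ^ orderOf x = 1
      rw [← hz, ← zpow_natCast, ← zpow_mul, mul_comm, zpow_mul, zpow_natCast, pow_orderOf_eq_one,
        one_zpow]
    · have h1 : ((Subgroup.zpowers z : Subgroup (Subgroup.zpowers s)) :
          Set (Subgroup.zpowers s)).ncard = Nat.card (Subgroup.zpowers z) :=
        (Nat.card_coe_set_eq _).symm
      rw [h1, Nat.card_zpowers, hz, Set.ncard_eq_toFinset_card', Set.toFinset_setOf]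
      exact IsCyclic.card_pow_eq_one_le (orderOf_pos x)
    · exact Set.toFinite _
  have h1 : Subgroup.zpowers (⟨x, hx⟩ : Subgroup.zpowers s) =
      Subgroup.zpowers (⟨y, hy⟩ : Subgroup.zpowers s) := by
    apply SetLike.coe_injective
    rw [key _ (by rw [Subgroup.orderOf_mk]), key _ (by rw [Subgroup.orderOf_mk, h])]
  have h2 := congrArg (Subgroup.map (Subgroup.zpowers s).subtype) h1
  rwa [MonoidHom.map_zpowers, MonoidHom.map_zpowers] at h2

section
variable {G : Type*} [Group G] [Finite G] {n : ℕ} {σ τ : G}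

theorem two_of_mem {P : Subgroup G} (hP : IsPGroup 2 P) {x : G} (hx : x ∈ P) :
    ∃ k : ℕ, orderOf x = 2 ^ k := by
  obtain ⟨k, hk⟩ := (IsPGroup.iff_orderOf.1 hP) ⟨x, hx⟩
  exact ⟨k, by rwa [Subgroup.orderOf_mk] at hk⟩

/-- odd elements normalizing a subgroup of `P` and centralizing `J` centralize it. -/
theorem core {P : Subgroup G} (D : DP P n σ τ) (hP : IsPGroup 2 P) {Q : Subgroup G} (hQP : Q ≤ P)
    {g : G} (hgQ : ∀ x ∈ Q, g * x * g⁻¹ ∈ Q) (hodd : (orderOf g).Coprime 2)
    (hgJ : g * σ ^ (2 ^ (n - 2)) = σ ^ (2 ^ (n - 2)) * g) : ∀ x ∈ Q, g * x = x * g := by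
  have hA : ∀ x ∈ Q, x ∈ Subgroup.zpowers σ → g * x = x * g := by
    intro x hxQ hx
    by_cases h2 : x * x = 1
    · by_cases h1 : x = 1
      · rw [h1, mul_one, one_mul]
      · rw [D.eq_J hx h2 h1]; exact hgJ
    · have h3 : g * x * g⁻¹ ∈ Subgroup.zpowers σ := by
        apply D.rot_of (hQP (hgQ x hxQ))
        intro h4
        apply h2
        have h5 : g * (x * x) * g⁻¹ = 1 := by rw [← h4]; group
        rw [mul_inv_eq_one] at h5
        exact mul_left_cancel (h5.trans (mul_one g).symm)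
      have h4 : Subgroup.zpowers (g * x * g⁻¹) = Subgroup.zpowers x :=
        zpowers_eq_of_order h3 hx (orderOf_conj g x)
      apply comm_of_odd (two_of_mem hP (hQP hxQ)) _ hodd
      rw [← h4]
      exact Subgroup.mem_zpowers _
  intro t ht
  by_cases htr : t ∈ Subgroup.zpowers σ
  · exact hA t ht htr
  have hgt := hgQ t ht
  have htt := D.sq_of (hQP ht) htr
  have hti : t⁻¹ = t := by rw [inv_eq_iff_mul_eq_one, htt]
  -- y = g t g⁻¹ t⁻¹ is a rotation
  have hgtr : g * t * g⁻¹ ∉ Subgroup.zpowers σ := by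
    intro h1
    have h2 : g * t * g⁻¹ * (g * t * g⁻¹) = 1 := by
      calc _ = g * (t * t) * g⁻¹ := by group
        _ = 1 := by rw [htt]; group
    have h3 : g * t * g⁻¹ ≠ 1 := by
      intro h4
      rw [mul_inv_eq_one] at h4
      have h5 : t = 1 := mul_left_cancel (h4.trans (mul_one g).symm)
      apply htr
      rw [h5]; exact Subgroup.one_mem _
    have h4 := D.eq_J h1 h2 h3
    have h5 : t = σ ^ (2 ^ (n - 2)) := by
      have h6 : g * t = g * σ ^ (2 ^ (n - 2)) := by
        rw [hgJ, ← h4]; group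
      exact mul_left_cancel h6
    apply htr
    rw [h5]
    exact Subgroup.npow_mem_zpowers σ _
  set y := g * t * g⁻¹ * t⁻¹ with hy
  have hyr : y ∈ Subgroup.zpowers σ := by
    rw [hy, hti]
    exact D.mul_rot (hQP hgt) hgtr (hQP ht) htr
  have hyQ : y ∈ Q := Subgroup.mul_mem _ hgt (Subgroup.inv_mem _ ht)
  have hgy := hA y hyQ hyr
  have hgt' : g * t * g⁻¹ = y * t := by rw [hy]; group
  have hpow : ∀ k : ℕ, g ^ k * t * (g ^ k)⁻¹ = y ^ k * t := by
    intro k
    induction k with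
    | zero => simp
    | succ k ih =>
      have h1 : g ^ (k + 1) * t * (g ^ (k + 1))⁻¹ = g * (g ^ k * t * (g ^ k)⁻¹) * g⁻¹ := by
        rw [pow_succ']; group
      have h2 : g * y ^ k = y ^ k * g := (show Commute g y from hgy).pow_right k
      rw [h1, ih]
      calc g * (y ^ k * t) * g⁻¹ = (g * y ^ k) * t * g⁻¹ := by group
        _ = y ^ k * (g * t * g⁻¹) := by rw [h2]; group
        _ = _ := by rw [hgt', pow_succ]; group
  have h1 := hpow (orderOf g)
  rw [pow_orderOf_eq_one, one_mul, inv_one, mul_one, right_eq_mul] at h1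
  obtain ⟨k, hk⟩ := two_of_mem hP (hQP hyQ)
  have h2 : orderOf y = 1 := by
    apply Nat.eq_one_of_dvd_coprimes (hodd.pow_right k) (orderOf_dvd_of_pow_eq_one h1)
    rw [hk]
  rw [orderOf_eq_one_iff] at h2
  rw [h2, one_mul, mul_inv_eq_iff_eq_mul] at hgt'
  exact hgt'

theorem npc (P : Sylow 2 G) (D : DP (P : Subgroup G) n σ τ) :
    HasNormalPComplement 2 (Subgroup.centralizer ({σ ^ (2 ^ (n - 2))} : Set G)) := by
  have hPC : (P : Subgroup G) ≤ Subgroup.centralizer ({σ ^ (2 ^ (n - 2))} : Set G) := by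
    intro x hx
    rw [Subgroup.mem_centralizer_singleton_iff]
    exact D.J_central hx
  apply H2.Fusion3.npc_of_frobenius_sylow (P.subtype hPC)
  intro Q hQ g hg hodd
  have hQP : Q.map (Subgroup.centralizer ({σ ^ (2 ^ (n - 2))} : Set G)).subtype ≤ (P : Subgroup G) := by
    rintro _ ⟨q, hq, rfl⟩
    exact hQ hq
  have h1 := core D P.isPGroup' hQP (g := (g : G)) (by
    rintro _ ⟨q, hq, rfl⟩
    exact ⟨g * q * g⁻¹, (Subgroup.mem_normalizer_iff.1 hg q).1 hq, rfl⟩)
    (by rwa [Subgroup.orderOf_coe]) (Subgroup.mem_centralizer_singleton_iff.1 g.2)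
  rw [Subgroup.mem_centralizer_iff]
  intro q hq
  apply Subtype.ext
  exact (h1 q ⟨q, hq, rfl⟩).symm

/-- `C(J) = O ⋊ P` -/
theorem exists_cmp (P : Sylow 2 G) (D : DP (P : Subgroup G) n σ τ) :
    ∃ O : Subgroup G, Cmp (Subgroup.centralizer ({σ ^ (2 ^ (n - 2))} : Set G)) O
      (P : Subgroup G) := by
  haveI : Fintype G := Fintype.ofFinite G
  have hPC : (P : Subgroup G) ≤ Subgroup.centralizer ({σ ^ (2 ^ (n - 2))} : Set G) := by
    intro x hx
    rw [Subgroup.mem_centralizer_singleton_iff]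
    exact D.J_central hx
  obtain ⟨N, hN, hc⟩ := (H2.Basic.npc_iff_sylow (P.subtype hPC)).1 (npc P D)
  have hcard : Nat.card ((P.subtype hPC : Sylow 2 _) : Subgroup
      (Subgroup.centralizer ({σ ^ (2 ^ (n - 2))} : Set G))) = Nat.card (P : Subgroup G) :=
    Nat.card_congr (Subgroup.subgroupOfEquivOfLe hPC).toEquiv
  refine ⟨_, Cmp.of_compl P.isPGroup' hPC N hN ?_ ?_⟩
  · rw [← hc.index_eq_card]; exact (P.subtype hPC).not_dvd_index
  · rw [hc.symm.index_eq_card, hcard]

/-- fusion of rotations of order at least four -/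
theorem fusion (P : Sylow 2 G) (D : DP (P : Subgroup G) n σ τ) {x y : G}
    (hx : x ∈ Subgroup.zpowers σ) (hy : y ∈ Subgroup.zpowers σ) (h2 : x * x ≠ 1)
    (hc : IsConj x y) : y = x ∨ y = x⁻¹ := by
  obtain ⟨g, hg⟩ := isConj_iff.1 hc
  have hxy : Subgroup.zpowers y = Subgroup.zpowers x :=
    zpowers_eq_of_order hy hx (by rw [← hg, orderOf_conj])
  have hgN : g ∈ Subgroup.normalizer (Subgroup.zpowers x : Set G) := by
    apply mem_normalizer_zpowers
    rw [hg, ← hxy]
    exact Subgroup.mem_zpowers _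
  have hPN : (P : Subgroup G) ≤ Subgroup.normalizer (Subgroup.zpowers x : Set G) := by
    intro s hs
    apply mem_normalizer_zpowers
    by_cases hsr : s ∈ Subgroup.zpowers σ
    · have : s * x * s⁻¹ = x := by
        obtain ⟨k, hk⟩ := hsr
        obtain ⟨j, hj⟩ := hx
        have hk' : σ ^ k = s := hk
        have hj' : σ ^ j = x := hj
        rw [← hk', ← hj']; group
      rw [this]; exact Subgroup.mem_zpowers _
    · rw [D.inv_of hs hsr hx]
      exact Subgroup.inv_mem _ (Subgroup.mem_zpowers _)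
  set N := Subgroup.normalizer (Subgroup.zpowers x : Set G) with hN
  set f : N →* MulAut (Subgroup.zpowers x) := Subgroup.normalizerMonoidHom (Subgroup.zpowers x)
    with hf
  have hidx1 : ∃ k, f.ker.index = 2 ^ k := by
    rw [Subgroup.index_ker]
    exact ((aut_zpowers (two_of_mem P.isPGroup' (D.zle hx))).to_subgroup f.range).exists_card_eq
  have hidx2 : ¬ 2 ∣ ((P.subtype hPN : Sylow 2 N) : Subgroup N).index :=
    (P.subtype hPN).not_dvd_index
  have hsup : f.ker ⊔ ((P.subtype hPN : Sylow 2 N) : Subgroup N) = ⊤ := by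
    rw [← Subgroup.index_eq_one]
    obtain ⟨k, hk⟩ := hidx1
    have h1 : (f.ker ⊔ ((P.subtype hPN : Sylow 2 N) : Subgroup N)).index ∣ 2 ^ k := by
      rw [← hk]; exact Subgroup.index_dvd_of_le le_sup_left
    have h3 : (f.ker ⊔ ((P.subtype hPN : Sylow 2 N) : Subgroup N)).index ∣
        ((P.subtype hPN : Sylow 2 N) : Subgroup N).index := Subgroup.index_dvd_of_le le_sup_right
    exact Nat.eq_one_of_dvd_coprimes
      (((Nat.Prime.coprime_iff_not_dvd Nat.prime_two).2 hidx2).pow_left k) h1 h3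
  have hmem : (⟨g, hgN⟩ : N) ∈ f.ker ⊔ ((P.subtype hPN : Sylow 2 N) : Subgroup N) := by
    rw [hsup]; trivial
  rw [Subgroup.mem_sup_of_normal_left] at hmem
  obtain ⟨c, hc, s, hs, hcs⟩ := hmem
  have hcs' : (c : G) * (s : G) = g := congrArg Subtype.val hcs
  have hsP : (s : G) ∈ (P : Subgroup G) := hs
  have hcc : ∀ z ∈ Subgroup.zpowers x, (c : G) * z * (c : G)⁻¹ = z := by
    intro z hz
    have h3 : f c = 1 := hc
    exact congrArg (fun α : MulAut (Subgroup.zpowers x) =>
      ((α ⟨z, hz⟩ : Subgroup.zpowers x) : G)) h3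
  by_cases hsr : (s : G) ∈ Subgroup.zpowers σ
  · left
    have h3 : (s : G) * x * (s : G)⁻¹ = x := by
      obtain ⟨k, hk⟩ := hsr
      obtain ⟨j, hj⟩ := hx
      have hk' : σ ^ k = (s : G) := hk
      have hj' : σ ^ j = x := hj
      rw [← hk', ← hj']; group
    rw [← hg, ← hcs']
    calc (c : G) * s * x * ((c : G) * s)⁻¹ = c * ((s : G) * x * (s : G)⁻¹) * (c : G)⁻¹ := by group
      _ = x := by rw [h3, hcc x (Subgroup.mem_zpowers x)]
  · right
    rw [← hg, ← hcs']
    calc (c : G) * s * x * ((c : G) * s)⁻¹ = c * ((s : G) * x * (s : G)⁻¹) * (c : G)⁻¹ := by group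
      _ = x⁻¹ := by
        rw [D.inv_of hsP hsr hx, hcc _ (Subgroup.inv_mem _ (Subgroup.mem_zpowers x))]

theorem real_rot {P : Subgroup G} (D : DP P n σ τ) {x : G} (hx : x ∈ Subgroup.zpowers σ) :
    IsConj x x⁻¹ := by
  rw [isConj_iff]
  exact ⟨τ, D.tau_inv hx⟩

end

end Cfsg.Agent.H25.DihGrp2
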