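import Mathlib
import Cfsg.Agent.H24_Tools
import Cfsg.Agent.H25_DihGrp2

/-! `p`-by-cyclic subgroups. -/

set_option autoImplicit false

namespace Cfsg.Agent.H23.PbyC

open Subgroup

variable {G : Type*} [Group G] [Finite G] {p : ℕ} [hp : Fact p.Prime]

/-- the condition: the Sylow `p`-subgroup is normal with cyclic quotient -/
def Cond (p : ℕ) [Fact p.Prime] (H : Subgroup G) : Prop :=
  (∀ S : Sylow p ↥H, (S : Subgroup ↥H).Normal) ∧
        (∀ (S : Sylow p ↥H) [(S : Subgroup ↥H).Normal], IsCyclic (↥H ⧸ (S : Subgroup ↥H)))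

theorem cond_of {R : Subgroup G} (hR : IsPGroup p R) {x : G} (hx : x ∈ normalizer (R : Set G)) :
    Cond p (R ⊔ zpowers x) := by
  set H := R ⊔ zpowers x with hH
  have hRH : R ≤ H := le_sup_left
  have hxH : x ∈ H := mem_sup_right (mem_zpowers x)
  have hHN : H ≤ normalizer (R : Set G) := sup_le le_normalizer (by rwa [zpowers_le])
  haveI hRn : (R.subgroupOf H).Normal := Subgroup.normal_subgroupOf_iff_le_normalizer hRH |>.2 hHN
  have hRp : IsPGroup p (R.subgroupOf H) := hR.of_injective (Subgroup.subgroupOfEquivOfLe hRH).toMonoidHom (Subgroup.subgroupOfEquivOfLe hRH).injective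
  set x' : H := ⟨x, hxH⟩ with hx'
  have hgen : ∀ h : H, ∃ r ∈ R.subgroupOf H, ∃ k : ℤ, r * x' ^ k = h := by
    intro h
    have h1 : R.subgroupOf H ⊔ zpowers x' = ⊤ := by
      apply Subgroup.map_injective H.subtype_injective
      rw [Subgroup.map_sup, Subgroup.subgroupOf_map_subtype, inf_eq_left.2 hRH, MonoidHom.map_zpowers,
        ← MonoidHom.range_eq_map, Subgroup.range_subtype]
      rfl
    have h2 : h ∈ R.subgroupOf H ⊔ zpowers x' := by rw [h1]; exact mem_top h
    rw [Subgroup.mem_sup_of_normal_left] at h2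
    obtain ⟨y, hy, z, ⟨k, hk⟩, hyz⟩ := h2
    refine ⟨y, hy, k, ?_⟩
    rw [← hyz, ← hk]
  have hle : ∀ S : Sylow p H, R.subgroupOf H ≤ S := fun S => hRp.le_sylow_of_normal S
  have hcomm : ∀ a b : H, a * b * a⁻¹ * b⁻¹ ∈ R.subgroupOf H := by
    intro a b
    obtain ⟨r, hr, k, rfl⟩ := hgen a
    obtain ⟨s, hs, l, rfl⟩ := hgen b
    have hx1 : ((r * x' ^ k * (s * x' ^ l) * (r * x' ^ k)⁻¹ * (s * x' ^ l)⁻¹ : H) : H ⧸ R.subgroupOf H) = 1 := by
      have hr' : ((r : H) : H ⧸ R.subgroupOf H) = 1 := (QuotientGroup.eq_one_iff r).2 hr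
      have hs' : ((s : H) : H ⧸ R.subgroupOf H) = 1 := (QuotientGroup.eq_one_iff s).2 hs
      simp only [QuotientGroup.mk_mul, QuotientGroup.mk_inv, hr', hs', one_mul, QuotientGroup.mk_zpow]
      rw [← zpow_add, add_comm, zpow_add, mul_inv_cancel_right, mul_inv_cancel]
    exact (QuotientGroup.eq_one_iff _).1 hx1
  constructor
  · intro S
    refine ⟨fun s hs h => ?_⟩
    have h1 := hle S (hcomm h s)
    have h2 := mul_mem h1 hs
    rwa [inv_mul_cancel_right] at h2
  · intro S hS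
    refine ⟨(x' : H ⧸ (S : Subgroup H)), fun y => ?_⟩
    obtain ⟨y, rfl⟩ := QuotientGroup.mk_surjective y
    obtain ⟨r, hr, k, rfl⟩ := hgen y
    refine ⟨k, ?_⟩
    have hr' : ((r : H) : H ⧸ (S : Subgroup H)) = 1 := (QuotientGroup.eq_one_iff r).2 (hle S hr)
    simp only [QuotientGroup.mk_mul, hr', one_mul, QuotientGroup.mk_zpow]

theorem cond_ex {H : Subgroup G} (hH : Cond p H) : ∃ (S : Sylow p H) (x : G), ((S : Subgroup H).Normal) ∧
    x ∈ normalizer (((S : Subgroup H).map H.subtype : Subgroup G) : Set G) ∧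
    x ∈ H ∧ H = (S : Subgroup H).map H.subtype ⊔ zpowers x ∧ H ≤ normalizer (((S : Subgroup H).map H.subtype : Subgroup G) : Set G) := by
  obtain ⟨S⟩ : Nonempty (Sylow p H) := inferInstance
  haveI hS := hH.1 S
  obtain ⟨y, hy⟩ := hH.2 S
  obtain ⟨x, rfl⟩ := QuotientGroup.mk_surjective y
  have hN : H ≤ normalizer (((S : Subgroup H).map H.subtype : Subgroup G) : Set G) := by
    intro h hh
    apply Cfsg.Agent.H24.Tools.mem_normalizer
    rintro _ ⟨s, hs, rfl⟩
    exact ⟨⟨h, hh⟩ * s * ⟨h, hh⟩⁻¹, hS.conj_mem s hs ⟨h, hh⟩, rfl⟩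
  refine ⟨S, x, hS, hN x.2, x.2, ?_, hN⟩
  apply le_antisymm
  · intro h hh
    obtain ⟨k, hk⟩ := hy ((⟨h, hh⟩ : H) : H ⧸ (S : Subgroup H))
    have h1 : (⟨h, hh⟩ : H) * (x ^ k)⁻¹ ∈ (S : Subgroup H) := by
      rw [← QuotientGroup.eq_one_iff, QuotientGroup.mk_mul, QuotientGroup.mk_inv, QuotientGroup.mk_zpow]
      have hk' : (x : H ⧸ (S : Subgroup H)) ^ k = ((⟨h, hh⟩ : H) : H ⧸ (S : Subgroup H)) := hk
      rw [hk', mul_inv_cancel]
    have h2 : h * ((x : G) ^ k)⁻¹ ∈ (S : Subgroup H).map H.subtype := ⟨_, h1, rfl⟩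
    have h3 : h = (h * ((x : G) ^ k)⁻¹) * (x : G) ^ k := by group
    rw [h3]
    exact mul_mem (mem_sup_left h2) (mem_sup_right (zpow_mem_zpowers _ _))
  · exact sup_le (Subgroup.map_subtype_le _) (by rw [zpowers_le]; exact x.2)

/-- commutative with cyclic Sylow `p` and cyclic modulo a `p`-group -/
theorem cyclic_of_comm {S : Subgroup G} {x : G} (hx : x ∈ normalizer (S : Set G)) (hS : IsPGroup p S)
    (hcomm : ∀ a ∈ S ⊔ zpowers x, ∀ b ∈ S ⊔ zpowers x, a * b = b * a) (hcyc : ∀ R : Subgroup G, IsPGroup p R → IsCyclic R) :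
    IsCyclic ↥(S ⊔ zpowers x) := by
  set H := S ⊔ zpowers x with hH
  letI : CommGroup H := { (inferInstance : Group H) with mul_comm := fun a b => Subtype.ext (hcomm a a.2 b b.2) }
  haveI : IsZGroup H := by
    refine ⟨fun q hq Q => ?_⟩
    haveI : Fact q.Prime := ⟨hq⟩
    by_cases hqp : q = p
    · subst hqp
      have h1 : IsPGroup q ((Q : Subgroup H).map H.subtype) := Q.2.map _
      have h2 := hcyc _ h1
      exact isCyclic_of_surjective ((Q : Subgroup H).equivMapOfInjective H.subtype H.subtype_injective).symm.toMonoidHom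
        ((Q : Subgroup H).equivMapOfInjective H.subtype H.subtype_injective).symm.surjective
    · have hc := (cond_of hS hx)
      obtain ⟨T⟩ : Nonempty (Sylow p H) := inferInstance
      haveI : (T : Subgroup H).Normal := inferInstance
      have h3 : IsCyclic (H ⧸ (T : Subgroup H)) := hc.2 T
      apply isCyclic_of_injective ((QuotientGroup.mk' (T : Subgroup H)).comp (Q : Subgroup H).subtype)
      rw [injective_iff_map_eq_one]
      intro y hy
      have h4 : (y : H) ∈ (T : Subgroup H) := (QuotientGroup.eq_one_iff _).1 hy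
      have h5 := IsPGroup.disjoint_of_ne q p hqp (Q : Subgroup H) (T : Subgroup H) Q.2 T.2
      rw [Subgroup.disjoint_def] at h5
      exact Subtype.ext (h5 y.2 h4)
  have : IsCyclic H := inferInstance
  exact this

/-- `H.map (conj g)` is isomorphic to `H` -/
theorem equiv_conj (H : Subgroup G) (g : G) : Nonempty (H ≃* H.map (MulAut.conj g).toMonoidHom) :=
  ⟨H.equivMapOfInjective _ (MulAut.conj g).injective⟩

end Cfsg.Agent.H23.PbyC
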