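import Mathlib
import Cfsg.Agent.H2_Basic
import Cfsg.Agent.H2_Card
import Cfsg.Agent.H24_Tools
import Cfsg.Agent.H1_Coprime2
import Cfsg.Agent.H23_Basic

/-! H23_PiClosed: π-closed groups and the homogeneity condition. -/

set_option autoImplicit false

namespace Cfsg.Agent.H23.PiClosed
open Cfsg.Agent

open Subgroup
open scoped Pointwise

universe u
variable {G : Type u} [Group G]

/-- pi-numbers -/
def Pi (π : Set ℕ) (n : ℕ) : Prop := ∀ p : ℕ, p.Prime → p ∣ n → p ∈ π

/-- the pi-elements form a subgroup -/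
def Closed (π : Set ℕ) (G : Type*) [Group G] : Prop := ∃ K : Subgroup G, ∀ x : G, x ∈ K ↔ Pi π (orderOf x)

/-- pi-elements normalising a pi'-subgroup centralise it -/
def Hom (π : Set ℕ) (G : Type*) [Group G] : Prop :=
  ∀ R : Subgroup G, Pi πᶜ (Nat.card R) → ∀ n ∈ normalizer (R : Set G), Pi π (orderOf n) → n ∈ centralizer (R : Set G)

theorem Pi.mul {π : Set ℕ} {m n : ℕ} (hm : Pi π m) (hn : Pi π n) : Pi π (m * n) := by
  intro p hp h
  rcases (hp.dvd_mul).1 h with h | h
  · exact hm p hp h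
  · exact hn p hp h

theorem Pi.of_dvd {π : Set ℕ} {m n : ℕ} (hn : Pi π n) (h : m ∣ n) : Pi π m := fun p hp h' => hn p hp (h'.trans h)

theorem Pi.coprime {π : Set ℕ} {m n : ℕ} (hm : Pi π m) (hn : Pi πᶜ n) : Nat.Coprime m n := by
  rw [Nat.coprime_iff_gcd_eq_one]
  by_contra h
  obtain ⟨p, hp, hd⟩ := Nat.exists_prime_and_dvd h
  exact hn p hp (hd.trans (Nat.gcd_dvd_right _ _)) (hm p hp (hd.trans (Nat.gcd_dvd_left _ _)))

/-- a finite group of pi-elements has pi order -/
theorem pi_card [Finite G] {π : Set ℕ} (h : ∀ x : G, Pi π (orderOf x)) : Pi π (Nat.card G) := by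
  intro p hp hd
  haveI : Fact p.Prime := ⟨hp⟩
  obtain ⟨x, hx⟩ := exists_prime_orderOf_dvd_card' p hd
  exact h x p hp (hx ▸ dvd_rfl)

theorem pi_of_card [Finite G] {π : Set ℕ} (h : Pi π (Nat.card G)) (x : G) : Pi π (orderOf x) :=
  h.of_dvd (orderOf_dvd_natCard x)

theorem hom_subgroup [Finite G] {π : Set ℕ} (h : Hom π G) (H : Subgroup G) : Hom π H := by
  intro R hR n hn hpi
  have h1 : Pi πᶜ (Nat.card (R.map H.subtype)) := by
    rwa [card_map_of_injective H.subtype_injective]
  have h2 : (n : G) ∈ normalizer ((R.map H.subtype : Subgroup G) : Set G) := by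
    apply H24.Tools.mem_normalizer
    rintro _ ⟨r, hr, rfl⟩
    exact ⟨n * r * n⁻¹, (mem_normalizer_iff.1 hn r).1 hr, rfl⟩
  have h3 := h _ h1 n h2 (by rwa [orderOf_coe])
  rw [mem_centralizer_iff] at h3 ⊢
  intro r hr
  exact Subtype.ext (h3 r ⟨r, hr, rfl⟩)

theorem closed_congr {π : Set ℕ} {H : Type*} [Group H] (e : G ≃* H) (h : Closed π G) : Closed π H := by
  obtain ⟨K, hK⟩ := h
  refine ⟨K.map e.toMonoidHom, fun x => ?_⟩
  have h1 : x ∈ K.map e.toMonoidHom ↔ e.symm x ∈ K := Subgroup.mem_map_equiv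
  rw [h1, hK, MulEquiv.orderOf_eq]

/-- the key step: pi-elements centralise `K / L` -/
theorem comm_mod [Finite G] {π : Set ℕ} (hG : Hom π G) (L K : Subgroup G) [L.Normal] [K.Normal] (hLK : L ≤ K)
    (hL : Pi π (Nat.card L)) (hK : Pi πᶜ (Nat.card (K.map (QuotientGroup.mk' L)))) (x : G) (hx : Pi π (orderOf x))
    (k : G) (hk : k ∈ K) : QuotientGroup.mk' L x * QuotientGroup.mk' L k = QuotientGroup.mk' L k * QuotientGroup.mk' L x := by
  classical
  set q := QuotientGroup.mk' L with hq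
  set Kb := K.map q with hKb
  haveI : Kb.Normal := Normal.map inferInstance q (QuotientGroup.mk'_surjective L)
  set C := Kb ⊓ centralizer ({q x} : Set (G ⧸ L)) with hC
  have hqx : Pi π (orderOf (q x)) := hx.of_dvd (orderOf_map_dvd _ _)
  suffices hCK : C = Kb by
    have : q k ∈ C := by rw [hCK]; exact mem_map_of_mem _ hk
    exact (mem_centralizer_singleton_iff.1 this.2).symm
  apply H2.Card.eq_of_le_of_card_eq inf_le_left
  apply Nat.dvd_antisymm (card_dvd_of_le inf_le_left)
  rw [← Nat.factorization_prime_le_iff_dvd Nat.card_pos.ne' Nat.card_pos.ne']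
  intro r hr
  haveI : Fact r.Prime := ⟨hr⟩
  have hA : zpowers (q x) ≤ normalizer (Kb : Set (G ⧸ L)) := by rw [normalizer_eq_top]; exact le_top
  have hcop : (Nat.card (zpowers (q x))).Coprime (Nat.card Kb) := by
    rw [Nat.card_zpowers]; exact hqx.coprime hK
  obtain ⟨P, hP⟩ := H1.Coprime.invariant_sylow_exists (zpowers (q x)) Kb hA hcop (Or.inl inferInstance) r
  set Rb := (P : Subgroup Kb).map Kb.subtype with hRb
  have hRbK : Rb ≤ Kb := map_subtype_le _
  have hRcard : Nat.card Rb = r ^ (Nat.card Kb).factorization r := H1.Coprime.card_map_sylow P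
  suffices hRC : Rb ≤ centralizer ({q x} : Set (G ⧸ L)) by
    have h1 : Nat.card Rb ∣ Nat.card C := card_dvd_of_le (le_inf hRbK hRC)
    rw [hRcard] at h1
    exact (hr.pow_dvd_iff_le_factorization Nat.card_pos.ne').1 h1
  -- lift
  have hRbp : IsPGroup r Rb := P.2.map _
  have hRbπ : Pi πᶜ (Nat.card Rb) := hK.of_dvd (card_dvd_of_le hRbK)
  set W := Rb.comap q with hW
  have hLW : L ≤ W := by
    intro l hl
    rw [hW, mem_comap]
    have : q l = 1 := (QuotientGroup.eq_one_iff l).2 hl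
    rw [this]; exact one_mem _
  have hWq : W.map q = Rb := map_comap_eq_self_of_surjective (QuotientGroup.mk'_surjective L) _
  have hcW : Nat.card W = Nat.card Rb * Nat.card L := by
    have h1 := Subgroup.card_mul_index (L.subgroupOf W)
    rw [H2.Card.card_subgroupOf_of_le hLW] at h1
    have h2 : (L.subgroupOf W).index = Nat.card Rb := by
      rw [← hWq, ← MonoidHom.domRestrict_range, ← index_ker, MonoidHom.ker_domRestrict, hq, QuotientGroup.ker_mk']
    rw [← h1, h2, mul_comm]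
  have hcop2 : (Nat.card L).Coprime (L.relIndex W) := by
    have : L.relIndex W = Nat.card Rb := by
      have h2 : (L.subgroupOf W).index = Nat.card Rb := by
        rw [← hWq, ← MonoidHom.domRestrict_range, ← index_ker, MonoidHom.ker_domRestrict, hq, QuotientGroup.ker_mk']
      exact h2
    rw [this]; exact hL.coprime hRbπ
  obtain ⟨R, hRW, hRc, hRd, hRs⟩ := H1.Coprime.sz_exists hLW (by rw [normalizer_eq_top]; exact le_top) hcop2
  have hRc' : Nat.card R = Nat.card Rb := by
    rw [hRc]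
    have h2 : (L.subgroupOf W).index = Nat.card Rb := by
      rw [← hWq, ← MonoidHom.domRestrict_range, ← index_ker, MonoidHom.ker_domRestrict, hq, QuotientGroup.ker_mk']
    exact h2
  have hRq : R.map q = Rb := by
    rw [← hWq, ← hRs, Subgroup.map_sup]
    have : L.map q = ⊥ := by
      rw [Subgroup.map_eq_bot_iff, hq, QuotientGroup.ker_mk']
    rw [this, sup_bot_eq]
  have hRπ : Pi πᶜ (Nat.card R) := by rw [hRc']; exact hRbπ
  have hconj : MulAut.conj x • R ≤ R ⊔ L := by
    rw [hRs]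
    intro y hy
    rw [H24.Tools.mem_conj] at hy
    rw [hW, mem_comap]
    have h1 : q (x⁻¹ * y * x) ∈ Rb := hRW hy
    have h2 := (mem_normalizer_iff.1 (hP (mem_zpowers (q x))) _).1 h1
    rw [← map_inv, ← map_mul, ← map_mul] at h2
    have h3 : x * (x⁻¹ * y * x) * x⁻¹ = y := by group
    rwa [h3] at h2
  have hsolv : Group.IsSolvable R := by
    haveI : IsPGroup r R := by
      apply IsPGroup.of_card (n := (Nat.card Kb).factorization r)
      rw [hRc', hRcard]
    haveI := this.isNilpotent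
    infer_instance
  obtain ⟨v, hv, hvc⟩ := H1.Coprime.sz_internal (A := R) (B := MulAut.conj x • R) (K := L) (by
        rw [normalizer_eq_top]; exact le_top) hconj (H1.Basic.card_conj _ _) (by
        exact (hL.coprime hRπ).symm) (Or.inl hsolv)
  have hvt : q (v⁻¹ * x) = q x := by
    have : q v = 1 := (QuotientGroup.eq_one_iff v).2 hv
    rw [map_mul, map_inv, this, inv_one, one_mul]
  have hnorm : v⁻¹ * x ∈ normalizer (R : Set G) := by
    apply H24.Tools.mem_normalizer
    intro z hz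
    have h1 : x * z * x⁻¹ ∈ MulAut.conj x • R := by
      rw [H24.Tools.mem_conj]
      have : x⁻¹ * (x * z * x⁻¹) * x = z := by group
      rw [this]; exact hz
    rw [← hvc, H24.Tools.mem_conj] at h1
    convert h1 using 1
    group
  have hpi : Pi π (orderOf (v⁻¹ * x)) := by
    have h1 : (v⁻¹ * x) ^ (orderOf (q x)) ∈ L := by
      rw [← QuotientGroup.eq_one_iff]
      change q _ = 1
      rw [map_pow, hvt, pow_orderOf_eq_one]
    have h2 : (v⁻¹ * x) ^ (orderOf (q x) * Nat.card L) = 1 := by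
      rw [pow_mul]
      have := pow_card_eq_one' (G := L) (x := ⟨_, h1⟩)
      exact congrArg Subtype.val this
    exact (hqx.mul hL).of_dvd (orderOf_dvd_of_pow_eq_one h2)
  have hcent := hG R hRπ _ hnorm hpi
  intro y hy
  rw [← hRq] at hy
  obtain ⟨z, hz, rfl⟩ := hy
  rw [mem_centralizer_singleton_iff, ← hvt, ← map_mul, ← map_mul, (mem_centralizer_iff.1 hcent) z hz]

set_option maxHeartbeats 1600000 in
theorem main [Finite G] {π : Set ℕ} (hG : Hom π G) (K : Subgroup G) [K.Normal] (hK : Closed π K) (hQ : Closed π (G ⧸ K)) :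
    Closed π G := by
  classical
  obtain ⟨L', hL'⟩ := hK
  obtain ⟨Tb, hTb⟩ := hQ
  set L := L'.map K.subtype with hLdef
  have hLmem : ∀ x : G, x ∈ L ↔ x ∈ K ∧ Pi π (orderOf x) := by
    intro x
    constructor
    · rintro ⟨y, hy, rfl⟩
      exact ⟨y.2, by have := (hL' y).1 hy; rwa [← orderOf_coe] at this⟩
    · rintro ⟨h1, h2⟩
      exact ⟨⟨x, h1⟩, (hL' _).2 (by rwa [orderOf_mk]), rfl⟩
  haveI : L.Normal := by
    constructor
    intro l hl g
    rw [hLmem] at hl ⊢
    refine ⟨(inferInstance : K.Normal).conj_mem l hl.1 g, ?_⟩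
    rw [H24.Tools.orderOf_conj]; exact hl.2
  have hLK : L ≤ K := map_subtype_le _
  have hLπ : Pi π (Nat.card L) := by
    apply pi_card
    intro x
    rw [← orderOf_coe]; exact ((hLmem x).1 x.2).2
  set q := QuotientGroup.mk' L with hq
  set Kb := K.map q with hKb
  haveI : Kb.Normal := Normal.map inferInstance q (QuotientGroup.mk'_surjective L)
  have hKbπ : Pi πᶜ (Nat.card Kb) := by
    intro p hp hd hpπ
    haveI : Fact p.Prime := ⟨hp⟩
    obtain ⟨⟨y, hy⟩, hyo⟩ := exists_prime_orderOf_dvd_card' p hd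
    rw [orderOf_mk] at hyo
    have hs : Function.Surjective (q.subgroupMap K) := q.subgroupMap_surjective K
    obtain ⟨x, hx, c, hc⟩ := H23.Basic.exists_lift_prime_pow (q.subgroupMap K) hs hp ⟨y, hy⟩ ⟨1, by rw [orderOf_mk, hyo, pow_one]⟩
    have h1 : (x : G) ∈ L := by
      rw [hLmem]
      refine ⟨x.2, ?_⟩
      rw [orderOf_coe, hc]
      intro r hr hrd
      rw [(Nat.prime_dvd_prime_iff_eq hr hp).1 (hr.dvd_of_dvd_pow hrd)]; exact hpπ
    have h2 : y = 1 := by
      have h3 : (q.subgroupMap K x : G ⧸ L) = y := congrArg Subtype.val hx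
      rw [← h3]
      exact (QuotientGroup.eq_one_iff (x : G)).2 h1
    rw [h2, orderOf_one] at hyo
    exact hp.one_lt.ne hyo
  set T := Tb.comap (QuotientGroup.mk' K) with hT
  have hKT : K ≤ T := by
    intro l hl
    rw [hT, mem_comap]
    have : QuotientGroup.mk' K l = 1 := (QuotientGroup.eq_one_iff l).2 hl
    rw [this]; exact one_mem _
  have hTπ : Pi π (Nat.card Tb) := by
    apply pi_card
    intro x
    rw [← orderOf_coe]; exact (hTb x).1 x.2
  have hrel : K.relIndex T = Nat.card Tb := by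
    have h1 : T.map (QuotientGroup.mk' K) = Tb := map_comap_eq_self_of_surjective (QuotientGroup.mk'_surjective K) _
    have h2 : (K.subgroupOf T).index = Nat.card Tb := by
      rw [← h1, ← MonoidHom.domRestrict_range, ← index_ker, MonoidHom.ker_domRestrict, QuotientGroup.ker_mk']
    exact h2
  set Tq := T.map q with hTq
  have hKTq : Kb ≤ Tq := map_mono hKT
  have hrelq : Kb.relIndex Tq = Nat.card Tb := by
    rw [← hrel, hKb, hTq, relIndex_map_map, hq, QuotientGroup.ker_mk', sup_eq_left.2 hLK, sup_eq_left.2 (hLK.trans hKT)]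
  obtain ⟨B, hBT, hBc, hBd, hBs⟩ := H1.Coprime.sz_exists hKTq (by rw [normalizer_eq_top]; exact le_top) (by
    rw [hrelq]; exact (hTπ.coprime hKbπ).symm)
  have hBπ : Pi π (Nat.card B) := by rw [hBc, hrelq]; exact hTπ
  have hup : ∀ x : G, q x ∈ B → Pi π (orderOf x) := by
    intro x hx
    have h1 : x ^ (Nat.card B) ∈ L := by
      rw [← QuotientGroup.eq_one_iff]
      change q _ = 1
      rw [map_pow]
      exact congrArg Subtype.val (pow_card_eq_one' (G := B) (x := ⟨_, hx⟩))
    have h2 : x ^ (Nat.card B * Nat.card L) = 1 := by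
      rw [pow_mul]
      exact congrArg Subtype.val (pow_card_eq_one' (G := L) (x := ⟨_, h1⟩))
    exact (hBπ.mul hLπ).of_dvd (orderOf_dvd_of_pow_eq_one h2)
  refine ⟨B.comap q, fun x => ⟨fun hx => hup x hx, fun hx => ?_⟩⟩
  rw [mem_comap]
  have hxT : x ∈ T := by
    rw [hT, mem_comap, hTb]
    exact hx.of_dvd (orderOf_map_dvd _ _)
  have h1 : q x ∈ B ⊔ Kb := by rw [hBs]; exact mem_map_of_mem _ hxT
  obtain ⟨b, hb, k, hk, hbk⟩ := (H2.Card.mem_sup_iff (H := B) (N := Kb) (by rw [normalizer_eq_top]; exact le_top)).1 h1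
  obtain ⟨b0, rfl⟩ := QuotientGroup.mk'_surjective L b
  obtain ⟨k0, hk0, rfl⟩ := hk
  have hcomm : Commute (q b0) (q k0) := comm_mod hG L K hLK hLπ hKbπ b0 (hup b0 hb) k0 hk0
  have hm : (q x) ^ (orderOf x) = 1 := by rw [← map_pow, pow_orderOf_eq_one, map_one]
  rw [← hbk, hcomm.mul_pow] at hm
  have h2 : (q k0) ^ (orderOf x) ∈ B ⊓ Kb := by
    refine mem_inf.2 ⟨?_, Kb.pow_mem (mem_map_of_mem _ hk0) _⟩
    have : (q k0) ^ (orderOf x) = ((q b0) ^ (orderOf x))⁻¹ := by
      rw [eq_inv_iff_mul_eq_one, ← hm]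
      exact ((hcomm.pow_pow _ _).eq).symm
    rw [this]
    exact B.inv_mem (B.pow_mem hb _)
  rw [hBd, mem_bot] at h2
  have h3 : orderOf (q k0) ∣ orderOf x := orderOf_dvd_of_pow_eq_one h2
  have h4 : orderOf (q k0) ∣ Nat.card Kb := by
    rw [← orderOf_mk (q k0) (mem_map_of_mem q hk0)]
    exact orderOf_dvd_natCard _
  have h5 := Nat.eq_one_of_dvd_coprimes (hx.coprime hKbπ) h3 h4
  rw [orderOf_eq_one_iff] at h5
  rw [← hbk, h5, mul_one]
  exact hb

/-- the relative index form of the homogeneity condition -/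
theorem hom_of_relIndex [Finite G] {π : Set ℕ} (h : ∀ H : Subgroup G, H ≠ ⊥ → (∀ p : ℕ, p.Prime → p ∣ Nat.card ↥H → p ∉ π) →
        ∀ p : ℕ, p.Prime → p ∣ (Subgroup.centralizer (H : Set G)).relIndex (Subgroup.normalizer (H : Set G)) → p ∉ π) :
    Hom π G := by
  intro R hR n hn hpi
  rcases eq_or_ne R ⊥ with rfl | hR1
  · rw [mem_centralizer_iff]
    intro h hh
    have : h = 1 := by simpa using hh
    rw [this]; simp
  have h1 : Pi πᶜ ((centralizer (R : Set G)).relIndex (normalizer (R : Set G))) := h R hR1 hR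
  have hn' : ((centralizer (R : Set G)).subgroupOf (normalizer (R : Set G))).Normal := by
    rw [← Subgroup.normalizerMonoidHom_ker]; infer_instance
  have h3 : n ^ ((centralizer (R : Set G)).relIndex (normalizer (R : Set G))) ∈ centralizer (R : Set G) :=
    ((centralizer (R : Set G)).subgroupOf (normalizer (R : Set G))).pow_index_mem ⟨n, hn⟩
  exact H24.Tools.coprime_pow_mem h3 (hpi.coprime h1)

theorem relIndex_of_hom [Finite G] {π : Set ℕ} (hG : Hom π G) (H : Subgroup G)
    (hH : ∀ p : ℕ, p.Prime → p ∣ Nat.card ↥H → p ∉ π) (p : ℕ) (hp : p.Prime)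
    (hd : p ∣ (Subgroup.centralizer (H : Set G)).relIndex (Subgroup.normalizer (H : Set G))) : p ∉ π := by
  intro hpπ
  haveI : Fact p.Prime := ⟨hp⟩
  haveI hn' : ((centralizer (H : Set G)).subgroupOf (normalizer (H : Set G))).Normal := by
    rw [← Subgroup.normalizerMonoidHom_ker]; infer_instance
  rw [relIndex, index_eq_card] at hd
  obtain ⟨x, hx⟩ := exists_prime_orderOf_dvd_card' p hd
  obtain ⟨n, hn, c, hc⟩ := H23.Basic.exists_lift_prime_pow
    (QuotientGroup.mk' ((centralizer (H : Set G)).subgroupOf (normalizer (H : Set G))))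
    (QuotientGroup.mk'_surjective _) hp x ⟨1, by rw [hx, pow_one]⟩
  have h1 : (n : G) ∈ centralizer (H : Set G) := by
    apply hG H hH n n.2
    rw [orderOf_coe, hc]
    intro r hr hrd
    rw [(Nat.prime_dvd_prime_iff_eq hr hp).1 (hr.dvd_of_dvd_pow hrd)]; exact hpπ
  have h2 : x = 1 := by
    rw [← hn]
    exact (QuotientGroup.eq_one_iff n).2 h1
  rw [h2, orderOf_one] at hx
  exact hp.one_lt.ne hx

/-- closed groups are homogeneous -/
theorem hom_of_closed [Finite G] {π : Set ℕ} (h : Closed π G) : Hom π G := by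
  obtain ⟨K, hK⟩ := h
  have hKn : K.Normal := by
    constructor
    intro l hl g
    rw [hK] at hl ⊢
    rw [H24.Tools.orderOf_conj]; exact hl
  intro R hR n hn hpi
  have hnK := (hK n).2 hpi
  rw [mem_centralizer_iff]
  intro r hr
  have h1 : n * r * n⁻¹ * r⁻¹ ∈ R := R.mul_mem ((mem_normalizer_iff.1 hn r).1 hr) (R.inv_mem hr)
  have h2 : n * r * n⁻¹ * r⁻¹ ∈ K := by
    have : n * r * n⁻¹ * r⁻¹ = n * (r * n⁻¹ * r⁻¹) := by group
    rw [this]
    exact K.mul_mem hnK (hKn.conj_mem _ (K.inv_mem hnK) r)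
  have h3 : orderOf (n * r * n⁻¹ * r⁻¹) ∣ Nat.card R := by
    rw [← orderOf_mk _ h1]; exact orderOf_dvd_natCard _
  have h4 := Nat.eq_one_of_dvd_coprimes (((hK _).1 h2).coprime hR) dvd_rfl h3
  rw [orderOf_eq_one_iff, mul_inv_eq_one, mul_inv_eq_iff_eq_mul] at h4
  exact h4.symm

theorem closed_of_pi [Finite G] {π : Set ℕ} (h : Pi π (Nat.card G)) : Closed π G :=
  ⟨⊤, fun x => ⟨fun _ => pi_of_card h x, fun _ => mem_top x⟩⟩

theorem closed_of_pi' [Finite G] {π : Set ℕ} (h : Pi πᶜ (Nat.card G)) : Closed π G :=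
  ⟨⊥, fun x => ⟨fun hx => by
    rw [mem_bot] at hx; subst hx
    intro p hp hd; rw [orderOf_one] at hd; exact absurd (Nat.dvd_one.1 hd) hp.one_lt.ne', fun hx => by
    rw [mem_bot, ← orderOf_eq_one_iff]
    exact Nat.eq_one_of_dvd_coprimes (hx.coprime (h.of_dvd (orderOf_dvd_natCard x))) dvd_rfl dvd_rfl⟩⟩

end Cfsg.Agent.H23.PiClosed
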