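import Mathlib
import Cfsg.Agent.H23_SRing

/-! H23_SRing2: Schur's theorem for cyclic groups of non-prime-power order. -/

set_option autoImplicit false
set_option linter.all false

namespace Cfsg.Agent.H23.SRing

open Subgroup MulAction

section

variable {G : Type*} [Group G] {Ω : Type*} [MulAction G Ω] {C : Subgroup G} {ω : Ω}
    (htr : ∀ α : Ω, ∃ c : C, (c : G) • ω = α) (hfree : ∀ c d : C, (c : G) • ω = (d : G) • ω → c = d)

include htr hfree

/-- multipliers coprime to the order preserve invariant sets -/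
theorem Inv.mult [Finite C] [DecidableEq C] (hcomm : ∀ a b : C, a * b = b * a) (m : ℕ) (hm : (Nat.card C).Coprime m) :
    ∀ {T : Finset C}, Inv C ω (fun x => x ∈ T) → Inv C ω (fun x => x ∈ T.image (fun t => t ^ m)) := by
  induction m using Nat.strong_induction_on with | _ m ih => ?_
  intro T hT
  rcases Nat.eq_zero_or_pos m with h0 | hpos
  · subst h0
    rw [Nat.coprime_zero_right] at hm
    haveI : Subsingleton C := (Nat.card_eq_one_iff_unique.1 hm).1
    intro s hs x y hxy
    rw [Subsingleton.elim x y]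
  by_cases h1 : m = 1
  · subst h1
    simpa using hT
  set q := m.minFac with hq
  haveI hqp : Fact q.Prime := ⟨Nat.minFac_prime h1⟩
  obtain ⟨k, hk⟩ := Nat.minFac_dvd m
  rw [← hq] at hk
  have hqc : (Nat.card C).Coprime q := hm.coprime_dvd_right (Dvd.intro _ hk.symm)
  have hkc : (Nat.card C).Coprime k := hm.coprime_dvd_right (Dvd.intro_left _ hk.symm)
  have hkm : k < m := by
    have : 2 ≤ q := hqp.out.two_le
    have hk0 : 0 < k := by
      rcases Nat.eq_zero_or_pos k with h | h
      · rw [h, mul_zero] at hk; omega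
      · exact h
    nlinarith
  have hinj : Function.Injective (fun a : C => a ^ q) := by
    haveI := Fintype.ofFinite C
    exact (powCoprime hqc).injective
  have hI := Inv.frob htr hfree hcomm (p := q) hT
  have h2 : Inv C ω (fun x => x ∈ T.image (fun t => t ^ q)) := by
    intro s hs x y hxy
    have h3 := hI s hs x y hxy
    have key : ∀ x : C, x ∈ T.image (fun t => t ^ q) ↔ ((T.filter (fun t => t ^ q = x)).card : ZMod q) ≠ 0 := by
      intro x
      rw [Finset.mem_image]
      constructor
      · rintro ⟨t, ht, rfl⟩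
        have : T.filter (fun t' => t' ^ q = t ^ q) = {t} := by
          ext t'
          rw [Finset.mem_filter, Finset.mem_singleton]
          constructor
          · intro h; exact hinj h.2
          · rintro rfl; exact ⟨ht, rfl⟩
        rw [this, Finset.card_singleton, Nat.cast_one]
        exact one_ne_zero
      · intro h
        by_contra hcon
        apply h
        have : T.filter (fun t => t ^ q = x) = ∅ := by
          rw [Finset.filter_eq_empty_iff]
          intro t ht htx
          exact hcon ⟨t, ht, htx⟩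
        rw [this, Finset.card_empty, Nat.cast_zero]
    simp only at h3
    simp only [key, h3]
  have h4 := ih k hkm hkc h2
  rw [Finset.image_image] at h4
  have h5 : (fun t : C => t ^ k) ∘ (fun t : C => t ^ q) = (fun t => t ^ m) := by
    funext t
    simp only [Function.comp]
    rw [← pow_mul, ← hk]
  rw [h5] at h4
  exact h4

set_option maxHeartbeats 1000000 in
/-- Schur: a primitive group with a regular cyclic subgroup of non-prime-power order is 2-transitive -/
theorem schur2 [Finite Ω] [Nontrivial Ω] [IsPreprimitive G Ω]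
    [Finite C] [IsCyclic C] {p r : ℕ} [hp : Fact p.Prime] [hr : Fact r.Prime] (hpC : p ∣ Nat.card C) (hrC : r ∣ Nat.card C) (hpr : p ≠ r) :
    ∀ x y : C, x ≠ 1 → y ≠ 1 → ∃ s ∈ stabilizer G ω, s • ((x : G) • ω) = (y : G) • ω := by
  classical
  haveI := Fintype.ofFinite C
  have hcomm : ∀ a b : C, a * b = b * a := fun a b => (IsCyclic.commGroup (α := C)).mul_comm a b
  have hpp := hp.out
  -- the element of order p
  obtain ⟨z, hz⟩ := exists_prime_orderOf_dvd_card' (G := C) p hpC
  obtain ⟨h, hh⟩ := exists_prime_orderOf_dvd_card' (G := C) r hrC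
  have hzp : z ^ p = 1 := by rw [← hz]; exact pow_orderOf_eq_one z
  have hz1 : z ≠ 1 := by rintro rfl; rw [orderOf_one] at hz; exact hpp.one_lt.ne hz
  have hh1 : h ≠ 1 := by rintro rfl; rw [orderOf_one] at hh; exact hr.out.one_lt.ne hh
  have hPcard : (Finset.univ.filter (fun a : C => a ^ p = 1)).card ≤ p := IsCyclic.card_pow_eq_one_le hpp.pos
  have hmulpow : ∀ a b : C, (a * b) ^ p = a ^ p * b ^ p := fun a b => (show Commute a b from hcomm a b).mul_pow p
  -- the power map
  let φ : C →* C := { toFun := fun a => a ^ p, map_one' := one_pow _, map_mul' := hmulpow }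
  have hrange : φ.range ≠ ⊤ := by
    intro h
    have h1 : Function.Surjective φ := MonoidHom.range_eq_top.1 h
    have h2 := Finite.injective_iff_surjective.2 h1
    exact hz1 (h2 (by change z ^ p = 1 ^ p; rw [hzp, one_pow]))
  have hrefl : ∀ x : C, ∃ s ∈ stabilizer G ω, s • ((x : G) • ω) = (x : G) • ω := fun x => ⟨1, one_mem _, one_smul _ _⟩
  -- (F1)
  have F1 : ∀ T : Finset C, Inv C ω (fun x => x ∈ T) → ∀ y ∈ T, y ^ p ≠ 1 → ∀ w : C, w ^ p = 1 → y * w ∈ T := by
    intro T hT y hyT hy w hw
    have hI := Inv.frob htr hfree hcomm (p := p) hT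
    set X : Set C := {x | ((T.filter (fun t => t ^ p = x)).card : ZMod p) ≠ 0} with hX
    have hXinv : Inv C ω (fun x => x ∈ X) := by
      intro s hs a b hab
      have h1 := hI s hs a b hab
      simp only [hX, Set.mem_setOf_eq] at h1 ⊢
      rw [h1]
    have hXr : Subgroup.closure X ≤ φ.range := by
      rw [Subgroup.closure_le]
      intro x hx
      have h1 : (T.filter (fun t => t ^ p = x)).Nonempty := by
        rw [Finset.nonempty_iff_ne_empty]
        intro h
        apply hx
        rw [h, Finset.card_empty, Nat.cast_zero]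
      obtain ⟨t, ht⟩ := h1
      exact ⟨t, (Finset.mem_filter.1 ht).2⟩
    have hXb : Subgroup.closure X = ⊥ := by
      rcases closure_eq htr hfree hXinv with h | h
      · exact h
      · exfalso
        apply hrange
        rw [eq_top_iff, ← h]; exact hXr
    have h1 : y ^ p ∉ X := by
      intro h
      have h2 : y ^ p ∈ Subgroup.closure X := Subgroup.subset_closure h
      rw [hXb, mem_bot] at h2
      exact hy h2
    have h2 : ((T.filter (fun t => t ^ p = y ^ p)).card : ZMod p) = 0 := by
      by_contra h; exact h1 h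
    rw [ZMod.natCast_eq_zero_iff] at h2
    have h3 : 0 < (T.filter (fun t => t ^ p = y ^ p)).card := Finset.card_pos.2 ⟨y, Finset.mem_filter.2 ⟨hyT, rfl⟩⟩
    have h4 := Nat.le_of_dvd h3 h2
    have h5 : T.filter (fun t => t ^ p = y ^ p) ⊆ (Finset.univ.filter (fun a : C => a ^ p = 1)).image (fun a => y * a) := by
      intro t ht
      rw [Finset.mem_filter] at ht
      rw [Finset.mem_image]
      refine ⟨y⁻¹ * t, ?_, by group⟩
      rw [Finset.mem_filter]
      refine ⟨Finset.mem_univ _, ?_⟩
      rw [hmulpow, inv_pow, ht.2, inv_mul_cancel]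
    have h6 : ((Finset.univ.filter (fun a : C => a ^ p = 1)).image (fun a => y * a)).card ≤ p :=
      Finset.card_image_le.trans hPcard
    have h7 := Finset.eq_of_subset_of_card_le h5 (h6.trans h4)
    have h8 : y * w ∈ (Finset.univ.filter (fun a : C => a ^ p = 1)).image (fun a => y * a) :=
      Finset.mem_image.2 ⟨w, Finset.mem_filter.2 ⟨Finset.mem_univ _, hw⟩, rfl⟩
    rw [← h7] at h8
    exact (Finset.mem_filter.1 h8).1
  -- basic sets
  let bs : C → Finset C := fun t => Finset.univ.filter (fun x => ∃ s ∈ stabilizer G ω, s • ((t : G) • ω) = (x : G) • ω)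
  have hbs : ∀ {t x : C}, x ∈ bs t ↔ ∃ s ∈ stabilizer G ω, s • ((t : G) • ω) = (x : G) • ω := by
    intro t x; simp [bs]
  have hbself : ∀ t, t ∈ bs t := fun t => hbs.2 (hrefl t)
  have hbinv : ∀ t, Inv C ω (fun x => x ∈ bs t) := by
    intro t s hs x y hxy
    apply propext
    change y ∈ bs t ↔ x ∈ bs t
    rw [hbs, hbs]
    constructor
    · rintro ⟨r, hr, hry⟩
      refine ⟨s⁻¹ * r, mul_mem (inv_mem hs) hr, ?_⟩
      rw [mul_smul, hry, ← hxy, inv_smul_smul]
    · rintro ⟨r, hr, hrx⟩
      exact ⟨s * r, mul_mem hs hr, by rw [mul_smul, hrx, hxy]⟩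
  have hbone : ∀ t, t ≠ 1 → (1 : C) ∉ bs t := by
    intro t ht h
    obtain ⟨s, hs, hst⟩ := hbs.1 h
    apply ht
    apply hfree
    rw [Subgroup.coe_one, one_smul] at hst ⊢
    have := congrArg (fun a => s⁻¹ • a) hst
    simp only [inv_smul_smul] at this
    rw [this, inv_smul_eq_iff, mem_stabilizer_iff.1 hs]
  have hbeq : ∀ {R : Type} (f : C → R), Inv C ω f → ∀ {t x : C}, x ∈ bs t → f x = f t := by
    intro R f hf t x hx
    obtain ⟨s, hs, hst⟩ := hbs.1 hx
    exact hf s hs t x hst
  -- stabilisers of basic sets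
  have hstab : ∀ (T : Finset C), Inv C ω (fun x => x ∈ T) → (1 : C) ∉ T → T.Nonempty → (∀ x ∈ T, z * x ∈ T) → False := by
    intro T hT h1 ⟨x, hx⟩ hcl
    have hcl' : ∀ n : ℕ, ∀ x ∈ T, z ^ n * x ∈ T := by
      intro n
      induction n with
      | zero => intro x hx; rwa [pow_zero, one_mul]
      | succ n ih => intro x hx; rw [pow_succ', mul_assoc]; exact hcl _ (ih x hx)
    have h2 := stab_closed htr hfree (T := (T : Set C)) hT hz1 (by
      intro y
      refine ⟨fun hy => hcl y hy, fun hy => ?_⟩
      have h3 := hcl' (p - 1) _ hy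
      rw [← mul_assoc, ← pow_succ, Nat.sub_add_cancel hpp.one_lt.le, hzp, one_mul] at h3
      exact h3) x⁻¹ x hx
    rw [inv_mul_cancel] at h2
    exact h1 h2
  -- (F2)
  have F2 : ∀ t, t ≠ 1 → ∃ a ∈ bs t, a ^ p = 1 := by
    intro t ht
    by_contra hcon
    push Not at hcon
    refine hstab (bs t) (hbinv t) (hbone t ht) ⟨t, hbself t⟩ (fun x hx => ?_)
    rw [hcomm]
    exact F1 _ (hbinv t) x hx (hcon x hx) z hzp
  have hsymm : ∀ {t x : C}, x ∈ bs t → t ∈ bs x := by
    intro t x hx
    have h0 : (x ∈ bs x) = (t ∈ bs x) := hbeq (fun y => y ∈ bs x) (hbinv x) hx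
    rw [← h0]
    exact hbself x
  have htrans : ∀ {t x y : C}, x ∈ bs t → y ∈ bs x → y ∈ bs t := by
    intro t x y hx hy
    have h0 : (y ∈ bs t) = (x ∈ bs t) := hbeq (fun y => y ∈ bs t) (hbinv t) hy
    rw [h0]; exact hx
  -- all nontrivial elements of order p are in `bs h`
  obtain ⟨a, ha, hap⟩ := F2 h hh1
  have ha1 : a ≠ 1 := by rintro rfl; exact hbone h hh1 ha
  have hao : orderOf a = p := orderOf_eq_prime hap ha1
  have hQ : ∀ b : C, b ^ p = 1 → b ≠ 1 → b ∈ bs h := by
    intro b hb hb1
    -- b is a power of a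
    have hbz : b ∈ zpowers a := by
      have e1 : (Finset.univ.filter (fun x : C => x ∈ zpowers a)) ⊆ (Finset.univ.filter (fun x : C => x ^ p = 1)) := by
        intro x hx
        rw [Finset.mem_filter] at hx ⊢
        refine ⟨hx.1, ?_⟩
        obtain ⟨k, hk⟩ := hx.2
        simp only at hk
        rw [← hk, ← zpow_natCast, ← zpow_mul, mul_comm, zpow_mul, zpow_natCast, hap, one_zpow]
      have e2 : (Finset.univ.filter (fun x : C => x ∈ zpowers a)).card = p := by
        rw [← hao, ← Nat.card_zpowers, Nat.card_eq_fintype_card, Fintype.card_subtype]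
      have e3 := Finset.eq_of_subset_of_card_le e1 (by rw [e2]; exact hPcard)
      have e4 : b ∈ (Finset.univ.filter (fun x : C => x ^ p = 1)) := Finset.mem_filter.2 ⟨Finset.mem_univ _, hb⟩
      rw [← e3] at e4
      exact (Finset.mem_filter.1 e4).2
    rw [mem_zpowers_iff_mem_range_orderOf, Finset.mem_image] at hbz
    obtain ⟨u, -, hu⟩ := hbz
    have hup : ¬ p ∣ u := by
      rintro ⟨v, rfl⟩
      apply hb1
      rw [← hu, pow_mul, hap, one_pow]
    -- chinese remainder
    obtain ⟨e, k, hk, hek⟩ := Nat.exists_eq_pow_mul_and_not_dvd (n := Nat.card C) Nat.card_pos.ne' p hpp.ne_one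
    have he : e ≠ 0 := by
      rintro rfl
      rw [pow_zero, one_mul] at hek
      rw [hek] at hpC
      exact hk hpC
    have hco : (p ^ e).Coprime k := Nat.Coprime.pow_left e ((Nat.Prime.coprime_iff_not_dvd hpp).2 hk)
    obtain ⟨m, hm1, hm2⟩ := Nat.chineseRemainder hco u 1
    have hm1' : m ≡ u [MOD p] := hm1.of_dvd (dvd_pow_self p he)
    have hmc : (Nat.card C).Coprime m := by
      rw [hek]
      apply Nat.Coprime.mul_left
      · apply Nat.Coprime.pow_left
        rw [Nat.Prime.coprime_iff_not_dvd hpp]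
        intro hd
        apply hup
        exact (Nat.modEq_zero_iff_dvd.1 (hm1'.symm.trans (Nat.modEq_zero_iff_dvd.2 hd)))
      · have : Nat.gcd m k = 1 := by
          rw [hm2.gcd_eq, Nat.gcd_one_left]
        rw [Nat.coprime_comm]; exact this
    have hrk : r ∣ k := by
      have h1 : r ∣ p ^ e * k := hek ▸ hrC
      rcases (Nat.Prime.dvd_mul hr.out).1 h1 with h2 | h2
      · exact absurd ((Nat.prime_dvd_prime_iff_eq hr.out hpp).1 (hr.out.dvd_of_dvd_pow h2)).symm hpr
      · exact h2
    have hhm : h ^ m = h := by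
      have h1 : m ≡ 1 [MOD orderOf h] := by rw [hh]; exact hm2.of_dvd hrk
      have h2 := pow_eq_pow_iff_modEq.2 h1
      rwa [pow_one] at h2
    have ham : a ^ m = b := by
      rw [← hu]
      exact pow_eq_pow_iff_modEq.2 (by rw [hao]; exact hm1')
    have hI := Inv.mult htr hfree hcomm m hmc (hbinv h)
    have hsub : bs h ⊆ (bs h).image (fun t => t ^ m) := by
      intro x hx
      have h0 : (x ∈ (bs h).image (fun t => t ^ m)) = (h ∈ (bs h).image (fun t => t ^ m)) := hbeq (fun y => y ∈ (bs h).image (fun t => t ^ m)) hI hx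
      rw [h0, Finset.mem_image]
      exact ⟨h, hbself h, hhm⟩
    have heq := Finset.eq_of_subset_of_card_le hsub Finset.card_image_le
    rw [heq, Finset.mem_image]
    exact ⟨a, ha, ham⟩
  intro x y hx hy
  have hall : ∀ t : C, t ≠ 1 → t ∈ bs h := by
    intro t ht
    obtain ⟨b, hb, hbp⟩ := F2 t ht
    have hb1 : b ≠ 1 := by rintro rfl; exact hbone t ht hb
    exact htrans (hQ b hbp hb1) (hsymm hb)
  exact hbs.1 (htrans (hsymm (hall x hx)) (hall y hy))

end

end Cfsg.Agent.H23.SRing
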