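import Mathlib
import Cfsg.Agent.H23_ClassSize2
import Cfsg.Agent.H2_Card

set_option autoImplicit false

open Cfsg Subgroup
open scoped Pointwise commutatorElement

namespace Cfsg.Agent.H23.SmallClass

variable {G : Type*} [Group G]

/-- Isaacs: for a normal abelian subgroup `A`, `a ∈ A` not commuting with `x`, the class of `[a,x]`
is smaller than the class of `x`. -/
theorem index_centralizer_comm_lt [Finite G] (A : Subgroup G) [A.Normal] (hA : IsMulCommutative A) (x a : G)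
    (ha : a ∈ A) (hne : a * x ≠ x * a) :
    (centralizer ({⁅a, x⁆} : Set G)).index < (centralizer ({x} : Set G)).index := by
  have hAc : ∀ u ∈ A, ∀ v ∈ A, u * v = v * u := by
    intro u hu v hv
    have := hA.is_comm.comm (⟨u, hu⟩ : A) ⟨v, hv⟩
    exact congrArg Subtype.val this
  set c := ⁅a, x⁆ with hc
  have hcA : c ∈ A := by
    rw [hc, commutatorElement_def]
    have h1 : a * x * a⁻¹ * x⁻¹ = a * (x * a⁻¹ * x⁻¹) := by group
    rw [h1]
    exact A.mul_mem ha ((inferInstance : A.Normal).conj_mem _ (A.inv_mem ha) x)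
  set D := centralizer ({x} : Set G) with hD
  set E := D ⊓ centralizer ({c} : Set G) with hE
  have hAC : A ≤ centralizer ({c} : Set G) := by
    intro u hu
    rw [mem_centralizer_singleton_iff]
    exact hAc u hu c hcA
  -- the map a' ↦ [a', x]
  have hφ : ∀ u ∈ A, ∀ v ∈ A, ⁅u, x⁆ = ⁅v, x⁆ ↔ v⁻¹ * u ∈ D := by
    intro u hu v hv
    rw [hD, mem_centralizer_singleton_iff, commutatorElement_def, commutatorElement_def]
    have h1 : x * u⁻¹ * x⁻¹ ∈ A := (inferInstance : A.Normal).conj_mem _ (A.inv_mem hu) x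
    have h2 : x * v⁻¹ * x⁻¹ ∈ A := (inferInstance : A.Normal).conj_mem _ (A.inv_mem hv) x
    constructor
    · intro h
      have h3 : u * (x * u⁻¹ * x⁻¹) = v * (x * v⁻¹ * x⁻¹) := by
        calc u * (x * u⁻¹ * x⁻¹) = u * x * u⁻¹ * x⁻¹ := by group
          _ = v * x * v⁻¹ * x⁻¹ := h
          _ = v * (x * v⁻¹ * x⁻¹) := by group
      have h4 : v⁻¹ * u = (x * v⁻¹ * x⁻¹) * (x * u⁻¹ * x⁻¹)⁻¹ := by
        rw [eq_mul_inv_iff_mul_eq, mul_assoc, h3]; group
      have h5 : (x * v⁻¹ * x⁻¹) * (x * u⁻¹ * x⁻¹)⁻¹ = x * (v⁻¹ * u) * x⁻¹ := by group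
      have h6 : v⁻¹ * u = x * (v⁻¹ * u) * x⁻¹ := h4.trans h5
      calc v⁻¹ * u * x = (x * (v⁻¹ * u) * x⁻¹) * x := by rw [← h6]
        _ = x * (v⁻¹ * u) := by group
    · intro h
      have h4 : x * (v⁻¹ * u) * x⁻¹ = v⁻¹ * u := by rw [← h]; group
      have h5 : (x * u⁻¹ * x⁻¹) = (v⁻¹ * u)⁻¹ * (x * v⁻¹ * x⁻¹) := by
        rw [← h4]; group
      calc u * x * u⁻¹ * x⁻¹ = u * (x * u⁻¹ * x⁻¹) := by group
        _ = u * ((v⁻¹ * u)⁻¹ * (x * v⁻¹ * x⁻¹)) := by rw [h5]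
        _ = u * (u⁻¹ * v) * (x * v⁻¹ * x⁻¹) := by group
        _ = v * x * v⁻¹ * x⁻¹ := by group
  -- F and F'
  let F : A ⧸ D.subgroupOf A → G := fun q => Quotient.liftOn' q (fun u => ⁅(u : G), x⁆) (by
    intro u v huv
    rw [QuotientGroup.leftRel_apply, mem_subgroupOf] at huv
    refine ((hφ u u.2 v v.2).2 ?_)
    have := D.inv_mem huv
    simpa using this)
  have hFinj : Function.Injective F := by
    intro q1 q2
    induction q1 using Quotient.inductionOn' with | _ u =>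
    induction q2 using Quotient.inductionOn' with | _ v =>
    intro h
    have h1 : ⁅(u : G), x⁆ = ⁅(v : G), x⁆ := h
    rw [hφ u u.2 v v.2] at h1
    rw [Quotient.eq'', QuotientGroup.leftRel_apply, mem_subgroupOf]
    have := D.inv_mem h1
    simpa using this
  let F' : D ⧸ (centralizer ({c} : Set G)).subgroupOf D → G :=
    fun q => Quotient.liftOn' q (fun d => (d : G) * c * (d : G)⁻¹) (by
    intro u v huv
    rw [QuotientGroup.leftRel_apply, mem_subgroupOf, mem_centralizer_singleton_iff] at huv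
    have h1 : ((u⁻¹ * v : D) : G) = (u : G)⁻¹ * v := by simp
    rw [h1] at huv
    calc (u : G) * c * (u : G)⁻¹ = (u : G) * (c * ((u : G)⁻¹ * v)) * (v : G)⁻¹ := by group
      _ = (u : G) * ((u : G)⁻¹ * v * c) * (v : G)⁻¹ := by rw [huv]
      _ = (v : G) * c * (v : G)⁻¹ := by group)
  have hF'inj : Function.Injective F' := by
    intro q1 q2
    induction q1 using Quotient.inductionOn' with | _ u =>
    induction q2 using Quotient.inductionOn' with | _ v =>
    intro h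
    have h1 : (u : G) * c * (u : G)⁻¹ = (v : G) * c * (v : G)⁻¹ := h
    rw [Quotient.eq'', QuotientGroup.leftRel_apply, mem_subgroupOf, mem_centralizer_singleton_iff]
    have h2 : ((u⁻¹ * v : D) : G) = (u : G)⁻¹ * v := by simp
    rw [h2]
    calc (u : G)⁻¹ * v * c = (u : G)⁻¹ * (v * c * (v : G)⁻¹) * v := by group
      _ = (u : G)⁻¹ * (u * c * (u : G)⁻¹) * v := by rw [h1]
      _ = c * ((u : G)⁻¹ * v) := by group
  have hss : Set.range F' ⊂ Set.range F := by
    constructor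
    · rintro _ ⟨q, rfl⟩
      induction q using Quotient.inductionOn' with | _ d =>
      have hd : (d : G) * a * (d : G)⁻¹ ∈ A := (inferInstance : A.Normal).conj_mem _ ha d
      refine ⟨Quotient.mk'' ⟨(d : G) * a * (d : G)⁻¹, hd⟩, ?_⟩
      change ⁅(d : G) * a * (d : G)⁻¹, x⁆ = (d : G) * c * (d : G)⁻¹
      have hdx : (d : G) * x = x * d := by
        have := d.2; rw [mem_centralizer_singleton_iff] at this; exact this
      have hdx' : (d : G)⁻¹ * x = x * (d : G)⁻¹ := by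
        rw [inv_mul_eq_iff_eq_mul, ← mul_assoc, hdx, mul_assoc, mul_inv_cancel, mul_one]
      rw [hc, commutatorElement_def, commutatorElement_def]
      calc (d : G) * a * (d : G)⁻¹ * x * ((d : G) * a * (d : G)⁻¹)⁻¹ * x⁻¹
          = (d : G) * a * ((d : G)⁻¹ * x) * ((d : G) * a⁻¹ * (d : G)⁻¹) * x⁻¹ := by group
        _ = (d : G) * a * (x * (d : G)⁻¹) * ((d : G) * a⁻¹ * (d : G)⁻¹) * x⁻¹ := by rw [hdx']
        _ = (d : G) * a * x * a⁻¹ * (x * d)⁻¹ := by group
        _ = (d : G) * a * x * a⁻¹ * (d * x)⁻¹ := by rw [hdx]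
        _ = (d : G) * (a * x * a⁻¹ * x⁻¹) * (d : G)⁻¹ := by group
    · intro hsub
      have h1 : (1 : G) ∈ Set.range F := ⟨Quotient.mk'' 1, by
        change ⁅((1 : A) : G), x⁆ = 1
        simp⟩
      obtain ⟨q, hq⟩ := hsub h1
      induction q using Quotient.inductionOn' with | _ d =>
      have h2 : (d : G) * c * (d : G)⁻¹ = 1 := hq
      have h3 : c = 1 := by
        have : c = (d : G)⁻¹ * ((d : G) * c * (d : G)⁻¹) * d := by group
        rw [this, h2]; group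
      rw [hc, commutatorElement_eq_one_iff_mul_comm] at h3
      exact hne h3
  have hlt : (centralizer ({c} : Set G)).relIndex D < D.relIndex A := by
    have h1 := Set.ncard_lt_ncard hss (Set.toFinite _)
    have h2 : (Set.range F').ncard = (centralizer ({c} : Set G)).relIndex D := by
      rw [← Set.image_univ, Set.ncard_image_of_injective _ hF'inj, Set.ncard_univ]; rfl
    have h3 : (Set.range F).ncard = D.relIndex A := by
      rw [← Set.image_univ, Set.ncard_image_of_injective _ hFinj, Set.ncard_univ]; rfl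
    rwa [h2, h3] at h1
  -- conclusion
  have h1 := H2.Card.card_inf_mul_relIndex (centralizer ({c} : Set G)) D
  have h2 := H2.Card.card_inf_mul_relIndex D A
  have h3 : Nat.card (E ⊔ A : Subgroup G) * Nat.card (E ⊓ A : Subgroup G) = Nat.card E * Nat.card A := by
    apply H2.Card.card_sup_mul_card_inf
    exact le_normalizer_of_normal
  have hEA : E ⊓ A = D ⊓ A := by
    rw [hE, inf_assoc, inf_eq_right.2 hAC]
  have hEA' : E ⊔ A ≤ centralizer ({c} : Set G) := sup_le inf_le_right hAC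
  have h4 : Nat.card E = Nat.card (centralizer ({c} : Set G) ⊓ D : Subgroup G) := by rw [hE, inf_comm]
  rw [← h4] at h1
  rw [hEA, ← h2] at h3
  have hpos : 0 < Nat.card (D ⊓ A : Subgroup G) := Nat.card_pos
  have hposE : 0 < Nat.card E := Nat.card_pos
  have h5 : Nat.card (E ⊔ A : Subgroup G) = Nat.card E * D.relIndex A := by
    apply Nat.eq_of_mul_eq_mul_right hpos
    rw [h3]; ring
  have h6 : Nat.card D < Nat.card (centralizer ({c} : Set G)) := by
    calc Nat.card D = Nat.card E * (centralizer ({c} : Set G)).relIndex D := h1.symm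
      _ < Nat.card E * D.relIndex A := Nat.mul_lt_mul_of_pos_left hlt hposE
      _ = Nat.card (E ⊔ A : Subgroup G) := h5.symm
      _ ≤ Nat.card (centralizer ({c} : Set G)) := card_le_of_le hEA'
  have h7 := D.card_mul_index
  have h8 := (centralizer ({c} : Set G)).card_mul_index
  by_contra hge
  push Not at hge
  have h9 : 0 < (centralizer ({c} : Set G)).index := Nat.pos_of_ne_zero index_ne_zero_of_finite
  have : Nat.card D * D.index < Nat.card (centralizer ({c} : Set G)) * (centralizer ({c} : Set G)).index :=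
    Nat.mul_lt_mul_of_lt_of_le h6 hge h9
  omega

/-- The three subgroups computation: if all `[a,x]`, `a ∈ A`, are central then commutators centralize `A`. -/
theorem comm_centralizes {a x y : G} (hx : ⁅x, a⁆ ∈ center G) (hy : ⁅y, a⁆ ∈ center G) : 
    ⁅x, y⁆ * a = a * ⁅x, y⁆ := by
  have hx' : ∀ g, g * ⁅x, a⁆ = ⁅x, a⁆ * g := mem_center_iff.1 hx
  have hy' : ∀ g, g * ⁅y, a⁆ = ⁅y, a⁆ * g := mem_center_iff.1 hy
  have e1 : x * a * x⁻¹ = ⁅x, a⁆ * a := by rw [commutatorElement_def]; group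
  have e2 : y * a * y⁻¹ = ⁅y, a⁆ * a := by rw [commutatorElement_def]; group
  have e3 : (x * y) * a * (x * y)⁻¹ = ⁅x, a⁆ * ⁅y, a⁆ * a := by
    calc (x * y) * a * (x * y)⁻¹ = x * (y * a * y⁻¹) * x⁻¹ := by group
      _ = x * (⁅y, a⁆ * a) * x⁻¹ := by rw [e2]
      _ = (x * ⁅y, a⁆) * a * x⁻¹ := by group
      _ = (⁅y, a⁆ * x) * a * x⁻¹ := by rw [hy']
      _ = ⁅y, a⁆ * (x * a * x⁻¹) := by group
      _ = ⁅y, a⁆ * (⁅x, a⁆ * a) := by rw [e1]
      _ = (⁅y, a⁆ * ⁅x, a⁆) * a := by group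
      _ = _ := by rw [hx']
  have e4 : (y * x) * a * (y * x)⁻¹ = ⁅x, a⁆ * ⁅y, a⁆ * a := by
    calc (y * x) * a * (y * x)⁻¹ = y * (x * a * x⁻¹) * y⁻¹ := by group
      _ = y * (⁅x, a⁆ * a) * y⁻¹ := by rw [e1]
      _ = (y * ⁅x, a⁆) * a * y⁻¹ := by group
      _ = (⁅x, a⁆ * y) * a * y⁻¹ := by rw [hx']
      _ = ⁅x, a⁆ * (y * a * y⁻¹) := by group
      _ = ⁅x, a⁆ * (⁅y, a⁆ * a) := by rw [e2]
      _ = _ := by group
  have e5 : (y * x)⁻¹ * ((x * y) * a * (x * y)⁻¹) * (y * x) = a := by rw [e3, ← e4]; group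
  rw [commutatorElement_def]
  have e6 : (y * x)⁻¹ * (x * y) * a = a * ((y * x)⁻¹ * (x * y)) := by
    calc (y * x)⁻¹ * (x * y) * a = ((y * x)⁻¹ * ((x * y) * a * (x * y)⁻¹) * (y * x)) * ((y * x)⁻¹ * (x * y)) := by group
      _ = _ := by rw [e5]
  -- e6 : [x⁻¹..]: (yx)⁻¹(xy) commutes with a; conjugate to the other commutator form
  have e7 : (x * y) * a * (x * y)⁻¹ = (y * x) * a * (y * x)⁻¹ := by rw [e3, e4]
  -- xy⁻¹ form
  have hxi : x⁻¹ * a * x = ⁅x, a⁆⁻¹ * a := by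
    have h1 : a = x⁻¹ * (⁅x, a⁆ * a) * x := by rw [← e1]; group
    have h2 : x⁻¹ * (⁅x, a⁆ * a) * x = ⁅x, a⁆ * (x⁻¹ * a * x) := by
      calc x⁻¹ * (⁅x, a⁆ * a) * x = (x⁻¹ * ⁅x, a⁆) * a * x := by group
        _ = (⁅x, a⁆ * x⁻¹) * a * x := by rw [hx']
        _ = _ := by group
    rw [h2] at h1
    exact (eq_inv_mul_of_mul_eq h1.symm)
  have hyi : y⁻¹ * a * y = ⁅y, a⁆⁻¹ * a := by
    have h1 : a = y⁻¹ * (⁅y, a⁆ * a) * y := by rw [← e2]; group
    have h2 : y⁻¹ * (⁅y, a⁆ * a) * y = ⁅y, a⁆ * (y⁻¹ * a * y) := by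
      calc y⁻¹ * (⁅y, a⁆ * a) * y = (y⁻¹ * ⁅y, a⁆) * a * y := by group
        _ = (⁅y, a⁆ * y⁻¹) * a * y := by rw [hy']
        _ = _ := by group
    rw [h2] at h1
    exact (eq_inv_mul_of_mul_eq h1.symm)
  have hxinv : ∀ g, g * ⁅x, a⁆⁻¹ = ⁅x, a⁆⁻¹ * g := mem_center_iff.1 (inv_mem hx)
  have hyinv : ∀ g, g * ⁅y, a⁆⁻¹ = ⁅y, a⁆⁻¹ * g := mem_center_iff.1 (inv_mem hy)
  have e8 : (x * y * x⁻¹ * y⁻¹) * a * (x * y * x⁻¹ * y⁻¹)⁻¹ = a := by
    calc (x * y * x⁻¹ * y⁻¹) * a * (x * y * x⁻¹ * y⁻¹)⁻¹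
        = (x * y) * (x⁻¹ * (y⁻¹ * a * y) * x) * (x * y)⁻¹ := by group
      _ = (x * y) * (x⁻¹ * (⁅y, a⁆⁻¹ * a) * x) * (x * y)⁻¹ := by rw [hyi]
      _ = (x * y) * ((x⁻¹ * ⁅y, a⁆⁻¹) * a * x) * (x * y)⁻¹ := by group
      _ = (x * y) * ((⁅y, a⁆⁻¹ * x⁻¹) * a * x) * (x * y)⁻¹ := by rw [hyinv]
      _ = (x * y) * (⁅y, a⁆⁻¹ * (x⁻¹ * a * x)) * (x * y)⁻¹ := by group
      _ = (x * y) * (⁅y, a⁆⁻¹ * (⁅x, a⁆⁻¹ * a)) * (x * y)⁻¹ := by rw [hxi]
      _ = ((x * y) * ⁅y, a⁆⁻¹) * ⁅x, a⁆⁻¹ * a * (x * y)⁻¹ := by group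
      _ = (⁅y, a⁆⁻¹ * (x * y)) * ⁅x, a⁆⁻¹ * a * (x * y)⁻¹ := by rw [hyinv]
      _ = ⁅y, a⁆⁻¹ * ((x * y) * ⁅x, a⁆⁻¹) * a * (x * y)⁻¹ := by group
      _ = ⁅y, a⁆⁻¹ * (⁅x, a⁆⁻¹ * (x * y)) * a * (x * y)⁻¹ := by rw [hxinv]
      _ = ⁅y, a⁆⁻¹ * ⁅x, a⁆⁻¹ * ((x * y) * a * (x * y)⁻¹) := by group
      _ = ⁅y, a⁆⁻¹ * ⁅x, a⁆⁻¹ * (⁅x, a⁆ * ⁅y, a⁆ * a) := by rw [e3]
      _ = a := by group
  calc x * y * x⁻¹ * y⁻¹ * a = ((x * y * x⁻¹ * y⁻¹) * a * (x * y * x⁻¹ * y⁻¹)⁻¹) * (x * y * x⁻¹ * y⁻¹) := by group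
    _ = a * (x * y * x⁻¹ * y⁻¹) := by rw [e8]

/-- class `≤ 3` criterion -/
theorem upper3 (B : Subgroup G) (hB : ∀ b ∈ B, ∀ y, ⁅b, y⁆ ∈ center G) (hG : ∀ x y : G, ⁅x, y⁆ ∈ B) :
    Subgroup.upperCentralSeries G 3 = ⊤ := by
  rw [eq_top_iff]
  intro x _
  rw [Subgroup.mem_upperCentralSeries_succ_iff]
  intro y
  rw [Subgroup.mem_upperCentralSeries_succ_iff]
  intro z
  rw [Subgroup.upperCentralSeries_one]
  exact hB _ (hG x y) z

/-- The main computation for subgroups generated by elements of small class size. -/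
theorem main [Finite G]
    (A : Subgroup G) [A.Normal] (hA : IsMulCommutative A) (hCA : centralizer (A : Set G) = A)
    (m : ℕ) (hm1 : 1 < m)
    (hmin : ∀ x : G, 1 < (centralizer ({x} : Set G)).index → m ≤ (centralizer ({x} : Set G)).index)
    (M : Subgroup G)
    (hM : M = closure {x : G | (centralizer ({x} : Set G)).index = 1 ∨ (centralizer ({x} : Set G)).index = m}) :
    ∀ x ∈ M, (∀ a ∈ A, ⁅x, a⁆ ∈ center G) ∧ ∀ y ∈ M, ⁅x, y⁆ ∈ A := by
  have key : ∀ x ∈ M, ∀ a ∈ A, ⁅x, a⁆ ∈ center G := by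
    intro x hx
    rw [hM] at hx
    induction hx using closure_induction with
    | mem x hx =>
      intro a ha
      rcases hx with hx | hx
      · rw [ClassSize.index_centralizer_eq_one_iff] at hx
        have : ⁅x, a⁆ = 1 := by
          rw [commutatorElement_eq_one_iff_mul_comm]
          exact (mem_center_iff.1 hx a).symm
        rw [this]; exact one_mem _
      · by_cases hc : a * x = x * a
        · have : ⁅x, a⁆ = 1 := by
            rw [commutatorElement_eq_one_iff_mul_comm]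
            exact hc.symm
          rw [this]; exact one_mem _
        · have h1 := index_centralizer_comm_lt A hA x a ha hc
          rw [hx] at h1
          have h2 : (centralizer ({⁅a, x⁆} : Set G)).index = 1 := by
            by_contra hne
            have h3 : (centralizer ({⁅a, x⁆} : Set G)).index ≠ 0 := index_ne_zero_of_finite
            have h4 := hmin ⁅a, x⁆ (by omega)
            omega
          rw [ClassSize.index_centralizer_eq_one_iff] at h2
          rw [← commutatorElement_inv]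
          exact inv_mem h2
    | one => intro a _; rw [commutatorElement_one_left]; exact one_mem _
    | mul x y _ _ ihx ihy =>
      intro a ha
      have h1 := ihx a ha
      have h2 := ihy a ha
      have h3 : ⁅x * y, a⁆ = x * ⁅y, a⁆ * x⁻¹ * ⁅x, a⁆ := by
        simp only [commutatorElement_def]; group
      rw [h3]
      have h4 : x * ⁅y, a⁆ * x⁻¹ = ⁅y, a⁆ := by
        rw [mem_center_iff.1 h2 x]; group
      rw [h4]; exact mul_mem h2 h1
    | inv x _ ih =>
      intro a ha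
      have h1 := ih a ha
      have h3 : ⁅x⁻¹, a⁆ = x⁻¹ * ⁅x, a⁆⁻¹ * x := by
        simp only [commutatorElement_def]; group
      rw [h3]
      have h4 : x⁻¹ * ⁅x, a⁆⁻¹ * x = ⁅x, a⁆⁻¹ := by
        rw [mem_center_iff.1 (inv_mem h1) x⁻¹]; group
      rw [h4]; exact inv_mem h1
  intro x hx
  refine ⟨key x hx, fun y hy => ?_⟩
  rw [← hCA, mem_centralizer_iff]
  intro a ha
  exact (comm_centralizes (key x hx a ha) (key y hy a ha)).symm

end Cfsg.Agent.H23.SmallClass
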