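import Mathlib
import Cfsg.Agent.H2_Basic

/-! H23_TISyl: Sylow subgroups that are TI sets. -/

set_option autoImplicit false

namespace Cfsg.Agent.H23.TISyl
open Cfsg.Agent

open Subgroup
open scoped Pointwise

theorem ti_all {G : Type*} [Group G] [Finite G] {p : ℕ} [Fact p.Prime] (P : Sylow p G)
    (hTI : ∀ g : G, g ∉ Subgroup.normalizer ((P : Subgroup G) : Set G) →
      (P : Subgroup G) ⊓ (MulAut.conj g • (P : Subgroup G)) = ⊥) (T S : Sylow p G)
    (h : (T : Subgroup G) ⊓ S ≠ ⊥) : T = S := by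
  obtain ⟨a, rfl⟩ := MulAction.exists_smul_eq G P T
  obtain ⟨b, rfl⟩ := MulAction.exists_smul_eq G (a • P) S
  obtain ⟨⟨x, hx⟩, hx1⟩ := Subgroup.ne_bot_iff_exists_ne_one.1 h
  have hx1' : (x : G) ≠ 1 := fun h => hx1 (Subtype.ext h)
  by_contra hne
  have hg : a⁻¹ * b * a ∉ Subgroup.normalizer ((P : Subgroup G) : Set G) := by
    intro hn
    apply hne
    have h1 : (a⁻¹ * b * a) • P = P := Sylow.smul_eq_iff_mem_normalizer.2 hn
    have h2 : a • ((a⁻¹ * b * a) • P) = a • P := by rw [h1]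
    rw [smul_smul] at h2
    have h3 : a * (a⁻¹ * b * a) = b * a := by group
    rw [h3, ← smul_smul] at h2
    exact h2.symm
  have h4 := hTI _ hg
  have h5 : a⁻¹ * (x : G) * a ∈ (P : Subgroup G) ⊓ (MulAut.conj (a⁻¹ * b * a) • (P : Subgroup G)) := by
    constructor
    · exact (H2.Basic.mem_smul_sylow P a x).1 hx.1
    · refine (H2.Basic.mem_smul_sylow P (a⁻¹ * b * a) _).2 ?_
      have h6 := (H2.Basic.mem_smul_sylow (a • P) b x).1 hx.2
      have h7 := (H2.Basic.mem_smul_sylow P a _).1 h6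
      convert h7 using 1
      group
  rw [h4, mem_bot] at h5
  apply hx1'
  have : (x : G) = a * (a⁻¹ * x * a) * a⁻¹ := by group
  rw [this, h5]; group

theorem ti_of_all {G : Type*} [Group G] [Finite G] {p : ℕ} [Fact p.Prime]
    (h : ∀ T S : Sylow p G, (T : Subgroup G) ⊓ S ≠ ⊥ → T = S) (P : Sylow p G) (g : G)
    (hg : g ∉ Subgroup.normalizer ((P : Subgroup G) : Set G)) :
      (P : Subgroup G) ⊓ (MulAut.conj g • (P : Subgroup G)) = ⊥ := by
  by_contra hne
  apply hg
  exact Sylow.smul_eq_iff_mem_normalizer.1 (h P (g • P) hne).symm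


end Cfsg.Agent.H23.TISyl
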