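import Cfsg.Agent.H17_Stab
import Cfsg.Agent.H2_Card
import Cfsg.Agent.H24_Tools
import Cfsg.Agent.H1_Schmidt

set_option autoImplicit false

/-! Alperin's fusion theorem with tame intersections. -/

open Subgroup
open Cfsg.Agent.H17.Base

namespace Cfsg.Agent.H23.Tame

universe u

variable {G : Type u} [Group G] {p : ℕ}

/-- tame intersections -/
def IsTame (p : ℕ) (P Q : Subgroup G) : Prop :=
  ¬ p ∣ (P ⊓ Nz (P ⊓ Q)).relIndex (Nz (P ⊓ Q)) ∧ ¬ p ∣ (Q ⊓ Nz (P ⊓ Q)).relIndex (Nz (P ⊓ Q))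

theorem not_dvd_relIndex [Finite G] [Fact p.Prime] {T H : Subgroup G} (h : IsSylowIn p T H) : ¬ p ∣ T.relIndex H :=
  h.toSylow.not_dvd_index

theorem isSylowIn_of_not_dvd [Finite G] [hp : Fact p.Prime] {T H : Subgroup G} (hT : IsPGroup p T) (hle : T ≤ H)
    (h : ¬ p ∣ T.relIndex H) : IsSylowIn p T H := by
  obtain ⟨S, hTS, hS⟩ := exists_isSylowIn_ge hT hle
  have h1 : T.relIndex S = 1 := by
    obtain ⟨n, hn⟩ := IsPGroup.iff_card.1 hS.2.1
    have h2 := H2.Card.card_mul_relIndex hTS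
    have h3 : T.relIndex S ∣ p ^ n := by rw [← hn, ← h2]; exact Dvd.intro_left _ rfl
    obtain ⟨m, -, hm⟩ := (Nat.dvd_prime_pow hp.out).1 h3
    rcases Nat.eq_zero_or_pos m with h0 | h0
    · rw [hm, h0, pow_zero]
    · exfalso
      apply h
      have h5 : T.relIndex S ∣ T.relIndex H := by
        rw [← relIndex_mul_relIndex T S H hTS hS.1]
        exact Dvd.intro _ rfl
      exact (hm ▸ dvd_pow_self p h0.ne').trans h5
  have h2 : T = S := le_antisymm hTS (relIndex_eq_one.1 h1)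
  rw [h2]; exact hS

/-- Alperin's fusion theorem: it suffices to treat the normalizer of `P`, and `p`-elements of normalizers of tame
intersections. -/
theorem alperin_tame [hp : Fact p.Prime] [Finite G] {P : Subgroup G} (hP : IsSylowIn p P ⊤)
    (R : Subgroup G → G → Prop)
    (hmul : ∀ A g h, A ≤ P → cj g A ≤ P → cj h (cj g A) ≤ P → R A g → R (cj g A) h → R A (h * g))
    (hinv : ∀ A g, A ≤ P → cj g A ≤ P → R A g → R (cj g A) g⁻¹)
    (hmono : ∀ A B g, A ≤ B → B ≤ P → cj g B ≤ P → R B g → R A g)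
    (hnormP : ∀ y ∈ Nz P, R P y)
    (htame : ∀ Q : Subgroup G, IsSylowIn p Q ⊤ → IsTame p P Q → ∀ x ∈ Nz (P ⊓ Q), (∃ k, orderOf x = p ^ k) → R (P ⊓ Q) x) :
    ∀ A, A ≤ P → ∀ g, cj g A ≤ P → R A g := by
  apply alperin hP R hmul hinv hmono
  intro U hUP hT hbig n hn
  by_cases hUeq : U = P
  · subst hUeq; exact hnormP n hn
  set T := P ⊓ Nz U with hTdef
  have hUT : U ≤ T := le_inf hUP Subgroup.le_normalizer
  have hUTlt : U < T := by
    refine lt_of_le_of_ne hUT (fun h => ?_)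
    have hUn : IsPGroup p P := hP.2.1
    have h1 := H1.Schmidt.lt_inf_normalizer (lt_of_le_of_ne hUP hUeq) hUn.isNilpotent
    exact absurd h h1.ne
  -- the good elements
  let E : Subgroup G :=
    { carrier := {n | n ∈ Nz U ∧ R U n}
      one_mem' := by
        refine ⟨one_mem _, ?_⟩
        have h1 : R P 1 := hnormP 1 (one_mem _)
        exact hmono U P 1 hUP le_rfl (by rw [cj_one]) h1
      mul_mem' := by
        rintro a b ⟨ha, hRa⟩ ⟨hb, hRb⟩
        refine ⟨mul_mem ha hb, ?_⟩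
        apply hmul U b a hUP
        · rw [cj_eq_of_mem_Nz hb]; exact hUP
        · rw [cj_eq_of_mem_Nz hb, cj_eq_of_mem_Nz ha]; exact hUP
        · exact hRb
        · rw [cj_eq_of_mem_Nz hb]; exact hRa
      inv_mem' := by
        rintro a ⟨ha, hRa⟩
        refine ⟨inv_mem ha, ?_⟩
        have h1 := hinv U a hUP (by rw [cj_eq_of_mem_Nz ha]; exact hUP) hRa
        rw [cj_eq_of_mem_Nz ha] at h1
        exact h1 }
  have hE : ∀ n, n ∈ E ↔ n ∈ Nz U ∧ R U n := fun n => Iff.rfl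
  have hbigE : ∀ n ∈ Nz U, ∀ W, U < W → W ≤ P → cj n W ≤ P → n ∈ E := by
    intro n hn W hUW hWP hnW
    exact ⟨hn, hmono U W n hUW.le hWP hnW (hbig W hWP (H2.Card.card_lt_of_lt hUW) n hnW)⟩
  by_contra hcon
  have hnE : n ∉ E := fun h => hcon h.2
  -- T ⊓ T^n = U
  have hTn : IsSylowIn p (cj n⁻¹ T) (Nz U) := by
    have := hT.conj n⁻¹
    rwa [cj_eq_of_mem (inv_mem hn)] at this
  have hint : T ⊓ cj n⁻¹ T = U := by
    by_contra hne
    apply hnE
    have h1 : U ≤ cj n⁻¹ T := by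
      rw [le_cj_iff, inv_inv, cj_eq_of_mem_Nz hn]; exact hUT
    apply hbigE n hn (T ⊓ cj n⁻¹ T) (lt_of_le_of_ne (le_inf hUT h1) (Ne.symm hne)) (inf_le_left.trans inf_le_left)
    rw [cj_inf, cj_cj_inv]
    exact inf_le_right.trans inf_le_left
  obtain ⟨Q, hTQ, hQ⟩ := exists_isSylowIn_ge (H := ⊤) hTn.2.1 le_top
  have hQN : Q ⊓ Nz U = cj n⁻¹ T := by
    apply hTn.eq_of_le inf_le_right
    · exact hQ.2.1.to_le inf_le_left
    · exact le_inf hTQ hTn.1
  have hUQ : U ≤ Q := by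
    have : U ≤ cj n⁻¹ T := by
      rw [le_cj_iff, inv_inv, cj_eq_of_mem_Nz hn]; exact hUT
    exact this.trans hTQ
  have hPQ : P ⊓ Q = U := by
    -- normalizer of U in P ⊓ Q is U
    by_contra hne
    have hlt : U < P ⊓ Q := lt_of_le_of_ne (le_inf hUP hUQ) (Ne.symm hne)
    have h1 := H1.Schmidt.lt_inf_normalizer hlt (hP.2.1.to_le inf_le_left).isNilpotent
    have h2 : (P ⊓ Q) ⊓ Nz U ≤ T ⊓ cj n⁻¹ T := by
      rw [← hQN]
      intro x hx
      exact ⟨⟨hx.1.1, hx.2⟩, hx.1.2, hx.2⟩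
    rw [hint] at h2
    exact absurd h1 (not_lt_of_ge h2)
  have htm : IsTame p P Q := by
    refine ⟨?_, ?_⟩
    · rw [hPQ]; exact not_dvd_relIndex hT
    · rw [hPQ, hQN]; exact not_dvd_relIndex hTn
  have hpE : ∀ x ∈ Nz U, (∃ k, orderOf x = p ^ k) → x ∈ E := by
    intro x hx hk
    refine ⟨hx, ?_⟩
    have := htame Q hQ htm x (by rw [hPQ]; exact hx) hk
    rwa [hPQ] at this
  have hEN : E ≤ Nz U := fun x hx => hx.1
  have hTE : T ≤ E := fun x hx => hpE x hx.2 (H24.Tools.exists_orderOf hP.2.1 hx.1)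
  have hcT : IsSylowIn p (cj n T) (Nz U) := by
    have := hT.conj n
    rwa [cj_eq_of_mem hn] at this
  have hnTE : cj n T ≤ E := fun x hx => hpE x (hcT.1 hx) (H24.Tools.exists_orderOf hcT.2.1 hx)
  obtain ⟨e, he, hee⟩ := (hT.mono hTE hEN).exists_conj (hcT.mono hnTE hEN)
  have h1 : cj (e⁻¹ * n) T = T := by rw [cj_mul, hee, cj_inv_cj]
  have h2 : e⁻¹ * n ∈ E := by
    apply hbigE _ (mul_mem (inv_mem (hEN he)) hn) T hUTlt inf_le_left
    rw [h1]; exact inf_le_left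
  have h3 := mul_mem he h2
  rw [mul_inv_cancel_left] at h3
  exact hnE h3

end Cfsg.Agent.H23.Tame
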