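import Mathlib
import Cfsg.Agent.H23_ClassSize2
import Cfsg.Agent.H23_Basic
import Cfsg.Agent.H23_Wielandt
import Cfsg.Agent.H24_Tools
import Cfsg.Agent.H2_Basic
import Cfsg.Agent.H1_Nilp

/-! H23_TwoSizes: Itô's theorem on groups with two class sizes. -/

set_option autoImplicit false
set_option linter.style.haveILetI false
set_option linter.unusedSectionVars false

namespace Cfsg.Agent.H23.TwoSizes

open Subgroup Cfsg

universe u

theorem nt (n c : ℕ) (hn : n ≠ 0) (hc : c ≠ 0) (hS : ∀ p : ℕ, p.Prime → p ∣ n → p ∣ c)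
    (h2 : ∃ p q : ℕ, p.Prime ∧ q.Prime ∧ p ≠ q ∧ p ∣ c ∧ q ∣ c)
    (hlt : ∀ p q : ℕ, p.Prime → q.Prime → p ≠ q → p ∣ c → q ∣ c → p ^ (n.factorization p) < q ^ (c.factorization q)) : n < c := by
  classical
  have hmem : ∀ p, p ∈ c.primeFactors ↔ p.Prime ∧ p ∣ c := fun p => by
    rw [Nat.mem_primeFactors]; exact ⟨fun h => ⟨h.1, h.2.1⟩, fun h => ⟨h.1, h.2, hc⟩⟩
  have en : n = ∏ p ∈ c.primeFactors, p ^ (n.factorization p) := by
    conv_lhs => rw [← Nat.prod_factorization_pow_eq_self hn]
    apply Finsupp.prod_of_support_subset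
    · intro p hp
      rw [Nat.support_factorization, Nat.mem_primeFactors] at hp
      rw [hmem]
      exact ⟨hp.1, hS p hp.1 hp.2.1⟩
    · intro i _; exact pow_zero _
  have ec : c = ∏ p ∈ c.primeFactors, p ^ (c.factorization p) := by
    conv_lhs => rw [← Nat.prod_factorization_pow_eq_self hc]
    apply Finsupp.prod_of_support_subset
    · intro p hp
      rwa [Nat.support_factorization] at hp
    · intro i _; exact pow_zero _
  obtain ⟨p0, q0, hp0, hq0, hpq0, hp0c, hq0c⟩ := h2
  obtain ⟨q1, hq1, hmin⟩ := Finset.exists_min_image c.primeFactors (fun q => q ^ (c.factorization q)) ⟨p0, (hmem p0).2 ⟨hp0, hp0c⟩⟩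
  obtain ⟨q2, hq2, hq21⟩ : ∃ q2 ∈ c.primeFactors, q2 ≠ q1 := by
    by_cases h : p0 = q1
    · exact ⟨q0, (hmem q0).2 ⟨hq0, hq0c⟩, fun h' => hpq0 (h.trans h'.symm)⟩
    · exact ⟨p0, (hmem p0).2 ⟨hp0, hp0c⟩, h⟩
  have hq2' : q2 ∈ c.primeFactors.erase q1 := Finset.mem_erase.2 ⟨hq21, hq2⟩
  rw [← Finset.mul_prod_erase _ _ hq1, ← Finset.mul_prod_erase _ _ hq2'] at en ec
  obtain ⟨hq1p, hq1c⟩ := (hmem q1).1 hq1
  obtain ⟨hq2p, hq2c⟩ := (hmem q2).1 hq2
  have e1 : q1 ^ (n.factorization q1) < q2 ^ (c.factorization q2) := hlt q1 q2 hq1p hq2p (Ne.symm hq21) hq1c hq2c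
  have e2 : q2 ^ (n.factorization q2) < q1 ^ (c.factorization q1) := hlt q2 q1 hq2p hq1p hq21 hq2c hq1c
  have e3 : ∏ p ∈ (c.primeFactors.erase q1).erase q2, p ^ (n.factorization p) ≤ ∏ p ∈ (c.primeFactors.erase q1).erase q2, p ^ (c.factorization p) := by
    apply Finset.prod_le_prod'
    intro p hp
    rw [Finset.mem_erase, Finset.mem_erase] at hp
    obtain ⟨hpp, hpc⟩ := (hmem p).1 hp.2.2
    exact (hlt p q1 hpp hq1p hp.2.1 hpc hq1c).le.trans (hmin p hp.2.2)
  have e4 : 0 < ∏ p ∈ (c.primeFactors.erase q1).erase q2, p ^ (c.factorization p) := by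
    apply Finset.prod_pos
    intro p hp
    rw [Finset.mem_erase, Finset.mem_erase] at hp
    exact pow_pos ((hmem p).1 hp.2.2).1.pos _
  have e5 : q1 ^ (n.factorization q1) * q2 ^ (n.factorization q2) < q1 ^ (c.factorization q1) * q2 ^ (c.factorization q2) := by
    rw [mul_comm (q1 ^ (c.factorization q1))]
    exact Nat.mul_lt_mul'' e1 e2
  calc n = q1 ^ (n.factorization q1) * q2 ^ (n.factorization q2) * ∏ p ∈ (c.primeFactors.erase q1).erase q2, p ^ (n.factorization p) := by
        rw [mul_assoc]; exact en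
    _ ≤ q1 ^ (n.factorization q1) * q2 ^ (n.factorization q2) * ∏ p ∈ (c.primeFactors.erase q1).erase q2, p ^ (c.factorization p) :=
        Nat.mul_le_mul_left _ e3
    _ < q1 ^ (c.factorization q1) * q2 ^ (c.factorization q2) * ∏ p ∈ (c.primeFactors.erase q1).erase q2, p ^ (c.factorization p) :=
        Nat.mul_lt_mul_of_pos_right e5 e4
    _ = c := by rw [mul_assoc]; exact ec.symm

variable {G : Type u} [Group G] [Finite G]

/-- centraliser of an element -/
abbrev C (x : G) : Subgroup G := centralizer ({x} : Set G)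

theorem mem_C {x y : G} : y ∈ C x ↔ y * x = x * y := mem_centralizer_singleton_iff

theorem self_mem (x : G) : x ∈ C x := mem_C.2 rfl

theorem center_le (x : G) : center G ≤ C x := fun z hz => mem_C.2 (Subgroup.mem_center_iff.1 hz x).symm

theorem mem_center_iff_index {x : G} : x ∈ center G ↔ (C x).index = 1 := by
  rw [Subgroup.index_eq_one]
  constructor
  · intro h
    rw [eq_top_iff]
    intro y _
    exact mem_C.2 (Subgroup.mem_center_iff.1 h y)
  · intro h
    rw [Subgroup.mem_center_iff]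
    intro y
    have : y ∈ C x := by rw [h]; trivial
    exact mem_C.1 this

theorem rne (x : G) : (center G).relIndex (C x) ≠ 0 :=
  (index_ne_zero_of_finite : ((center G).subgroupOf (C x)).index ≠ 0)

theorem C_le_iff {x y : G} : C x ≤ C y ↔ ∀ z ∈ C x, z * y = y * z := by
  constructor
  · intro h z hz; exact mem_C.1 (h hz)
  · intro h z hz; exact mem_C.2 (h z hz)

variable {n : ℕ} (h : ∀ x : G, (C x).index = 1 ∨ (C x).index = n)

include h in
theorem index_eq {x : G} (hx : x ∉ center G) : (C x).index = n := by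
  rcases h x with h1 | h1
  · exact absurd (mem_center_iff_index.2 h1) hx
  · exact h1

include h in
theorem card_C {x : G} (hx : x ∉ center G) : Nat.card (C x) * n = Nat.card G := by
  rw [← index_eq h hx]; exact (C x).card_mul_index

include h in
theorem eq_of_le {x y : G} (hx : x ∉ center G) (hy : y ∉ center G) (hle : C x ≤ C y) : C x = C y := by
  apply Subgroup.eq_of_le_of_card_ge hle
  have h1 := card_C h hx
  have h2 := card_C h hy
  have hn : 0 < n := by
    rw [← index_eq h hx]; exact Nat.pos_of_ne_zero index_ne_zero_of_finite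
  rw [← h2] at h1
  exact (Nat.eq_of_mul_eq_mul_right hn h1).ge

theorem C_mul {x y : G} (hc : x * y = y * x) (hco : Nat.Coprime (orderOf x) (orderOf y)) : C (x * y) ≤ C x ⊓ C y := by
  exact le_inf (H23.ClassSize.centralizer_mul_le hc hco) (by
    rw [hc]; exact H23.ClassSize.centralizer_mul_le hc.symm hco.symm)

include h in
/-- if `x` is a noncentral and `y ∈ C(x)` has coprime order, then `C(x) ≤ C(y)` -/
theorem le_of_coprime {x y : G} (hx : x ∉ center G) (hy : y ∈ C x) (hco : Nat.Coprime (orderOf x) (orderOf y)) : C x ≤ C y := by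
  have hc : x * y = y * x := (mem_C.1 hy).symm
  have h1 := C_mul hc hco
  have h2 : x * y ∉ center G := by
    intro h2
    apply hx
    rw [mem_center_iff_index, Subgroup.index_eq_one] at h2 ⊢
    rw [eq_top_iff, ← h2]
    exact h1.trans inf_le_left
  have h3 := eq_of_le h h2 hx (h1.trans inf_le_left)
  rw [← h3]; exact h1.trans inf_le_right

/-- noncentral elements have noncentral prime power parts -/
theorem exists_part {x : G} (hx : x ∉ center G) : ∃ y ∈ zpowers x, y ∉ center G ∧ ∃ q b : ℕ, q.Prime ∧ orderOf y = q ^ b := by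
  by_contra hcon
  push Not at hcon
  apply hx
  apply H23.Basic.mem_of_prime_pow_parts
  intro y hy q b hq hyo
  by_contra h1
  exact hcon y hy h1 q b hq hyo

theorem C_le_of_mem_zpowers {x y : G} (hy : y ∈ zpowers x) : C x ≤ C y := by
  obtain ⟨k, rfl⟩ := hy
  intro z hz
  exact mem_C.2 ((show Commute z x from mem_C.1 hz).zpow_right k)

section two

variable {p q : ℕ} [hp : Fact p.Prime] [hq : Fact q.Prime] (hpq : p ≠ q) {x y : G} (hx : x ∉ center G) (hy : y ∉ center G)
  (hxo : ∃ a, orderOf x = p ^ a) (hyo : ∃ b, orderOf y = q ^ b)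

theorem card_factor {x : G} (r : ℕ) : (center G).relIndex (C x) * Nat.card (center G) = Nat.card (C x) := by
  rw [mul_comm]; exact H24.Tools.card_mul_relIndex (center_le x)

include h in
theorem relIndex_eq {x y : G} (hx : x ∉ center G) (hy : y ∉ center G) : (center G).relIndex (C x) = (center G).relIndex (C y) := by
  have h1 := card_C h hx
  have h2 := card_C h hy
  have hn : 0 < n := by
    rw [← index_eq h hx]; exact Nat.pos_of_ne_zero index_ne_zero_of_finite
  rw [← h2] at h1
  have h3 := Nat.eq_of_mul_eq_mul_right hn h1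
  have h4 := card_factor (x := x) 0
  have h5 := card_factor (x := y) 0
  rw [h3, ← h5] at h4
  exact Nat.eq_of_mul_eq_mul_right Nat.card_pos h4

include h in
/-- the prime of a noncentral element divides `c` -/
theorem dvd_c {r : ℕ} [hr : Fact r.Prime] {w x : G} (hw : w ∉ center G) (hwo : ∃ a, orderOf w = r ^ a) (hx : x ∉ center G) :
    r ∣ (center G).relIndex (C x) := by
  rw [relIndex_eq h hx hw]
  haveI : ((center G).subgroupOf (C w)).Normal := inferInstance
  obtain ⟨a, ha⟩ := hwo
  let w' : C w := ⟨w, self_mem w⟩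
  have h1 : orderOf (QuotientGroup.mk' ((center G).subgroupOf (C w)) w') ∣ r ^ a := by
    rw [← ha, ← Subgroup.orderOf_mk w (self_mem w)]
    exact orderOf_map_dvd _ _
  obtain ⟨b, -, hb⟩ := (Nat.dvd_prime_pow hr.out).1 h1
  have hb0 : b ≠ 0 := by
    rintro rfl
    rw [pow_zero, orderOf_eq_one_iff] at hb
    exact hw (mem_subgroupOf.1 ((QuotientGroup.eq_one_iff w').1 hb))
  have h2 : orderOf (QuotientGroup.mk' ((center G).subgroupOf (C w)) w') ∣ Nat.card (C w ⧸ (center G).subgroupOf (C w)) := orderOf_dvd_natCard _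
  rw [hb] at h2
  exact (dvd_pow_self r hb0).trans h2

include h in
/-- conversely primes dividing `c` have noncentral elements in `C(x)` -/
theorem exists_in_C {r : ℕ} [hr : Fact r.Prime] {x : G} (hr' : r ∣ (center G).relIndex (C x)) :
    ∃ w ∈ C x, w ∉ center G ∧ ∃ a, orderOf w = r ^ a := by
  by_contra hcon
  push Not at hcon
  let R : Sylow r (C x) := default
  have h1 : (R : Subgroup (C x)) ≤ (center G).subgroupOf (C x) := by
    intro w hw
    rw [mem_subgroupOf]
    by_contra h2
    obtain ⟨a, ha⟩ := IsPGroup.iff_orderOf.1 R.2 ⟨w, hw⟩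
    rw [← orderOf_coe] at ha
    exact hcon w w.2 h2 a (by rw [orderOf_coe]; exact ha)
  exact R.not_dvd_index (hr'.trans (Subgroup.index_dvd_of_le h1))

include h hpq hx hy hxo hyo in
/-- all centralisers of noncentral elements are abelian -/
theorem comm_C {v : G} (hv : v ∉ center G) : ∀ a ∈ C v, ∀ b ∈ C v, a * b = b * a := by
  -- reduce to prime power order
  obtain ⟨w, hwv, hwc, s, e, hs, hwo⟩ := exists_part hv
  have hCw : C v = C w := eq_of_le h hv hwc (C_le_of_mem_zpowers hwv)
  rw [hCw]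
  haveI : Fact s.Prime := ⟨hs⟩
  -- another prime
  obtain ⟨r, hr, hrs, u, hu, huo⟩ : ∃ r : ℕ, r.Prime ∧ r ≠ s ∧ ∃ u : G, u ∉ center G ∧ ∃ b, orderOf u = r ^ b := by
    by_cases hps : p = s
    · exact ⟨q, hq.out, fun h => hpq (hps.trans h.symm), y, hy, hyo⟩
    · exact ⟨p, hp.out, hps, x, hx, hxo⟩
  haveI : Fact r.Prime := ⟨hr⟩
  obtain ⟨t, ht, htc, f, hto⟩ := exists_in_C h (dvd_c h hu huo hwc)
  have hco : Nat.Coprime (orderOf w) (orderOf t) := by
    rw [hwo, hto]; exact Nat.Coprime.pow _ _ ((Nat.coprime_primes hs hr).2 hrs.symm)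
  have hCt : C w = C t := eq_of_le h hwc htc (le_of_coprime h hwc ht hco)
  intro a ha b hb
  -- b lies in the centraliser of C w
  have key : a ∈ centralizer ((C w : Subgroup G) : Set G) := by
    apply H23.Basic.mem_of_prime_pow_parts
    intro c hc l m hl hco'
    have hcC : c ∈ C w := (zpowers_le.2 ha) hc
    rw [mem_centralizer_iff]
    intro d hd
    by_cases hls : l = s
    · have h1 : C t ≤ C c := le_of_coprime h htc (hCt ▸ hcC) (by
        rw [hto, hco', hls]; exact Nat.Coprime.pow _ _ ((Nat.coprime_primes hr hs).2 hrs))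
      exact mem_C.1 (h1 (hCt ▸ hd))
    · have h1 : C w ≤ C c := le_of_coprime h hwc hcC (by
        rw [hwo, hco']; exact Nat.Coprime.pow _ _ ((Nat.coprime_primes hs hl).2 (Ne.symm hls)))
      exact mem_C.1 (h1 hd)
  exact (mem_centralizer_iff.1 key b hb).symm

variable (hab : ∀ v : G, v ∉ center G → ∀ a ∈ C v, ∀ b ∈ C v, a * b = b * a)

include h hab in
theorem C_eq {v w : G} (hv : v ∉ center G) (hw : w ∉ center G) (hwv : w ∈ C v) : C w = C v := by
  apply (eq_of_le h hv hw _).symm
  intro z hz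
  exact mem_C.2 (hab v hv z hz w hwv)

include h hab in
theorem c_le_n (hn : 1 < n) {x : G} (hx : x ∉ center G) : (center G).relIndex (C x) ≤ n := by
  classical
  haveI := Fintype.ofFinite G
  set c := (center G).relIndex (C x) with hc
  set z := Nat.card (center G) with hz
  have hz0 : 0 < z := Nat.card_pos
  have hG : Nat.card G = n * c * z := by
    rw [← card_C h hx, ← card_factor (x := x) 0]; ring
  let s : Finset G := Finset.univ.filter (fun y => y ∉ center G)
  have hs : s.card + z = Nat.card G := by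
    have h1 : (Finset.univ.filter (fun y : G => y ∈ center G)).card = z := by
      rw [hz, Nat.card_eq_fintype_card, ← Fintype.card_subtype]
    rw [← h1, add_comm]
    have h2 := Finset.card_filter_add_card_filter_not (s := (Finset.univ : Finset G)) (fun y => y ∈ center G)
    rw [Finset.card_univ, ← Nat.card_eq_fintype_card] at h2
    exact h2
  have hd : (c - 1) * z ∣ s.card := by
    rw [Finset.card_eq_sum_card_image (fun y => C y) s]
    apply Finset.dvd_sum
    intro K hK
    obtain ⟨y, hy, rfl⟩ := Finset.mem_image.1 hK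
    have hyc : y ∉ center G := (Finset.mem_filter.1 hy).2
    have h1 : s.filter (fun w => C w = C y) = (Finset.univ.filter (fun w => w ∈ C y)) \ (Finset.univ.filter (fun w => w ∈ center G)) := by
      ext w
      simp only [s, Finset.mem_filter, Finset.mem_univ, true_and, Finset.mem_sdiff]
      constructor
      · rintro ⟨h1, h2⟩
        exact ⟨h2 ▸ self_mem w, h1⟩
      · rintro ⟨h1, h2⟩
        exact ⟨h2, C_eq h hab hyc h2 h1⟩
    have h2 : (Finset.univ.filter (fun w : G => w ∈ C y)).card = c * z := by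
      rw [← Fintype.card_subtype, ← Nat.card_eq_fintype_card]
      change Nat.card (C y) = c * z
      rw [← card_factor (x := y) 0, relIndex_eq h hyc hx]
    have h3 : (Finset.univ.filter (fun y : G => y ∈ center G)).card = z := by
      rw [hz, Nat.card_eq_fintype_card, ← Fintype.card_subtype]
    rw [h1, Finset.card_sdiff_of_subset, h2, h3, Nat.sub_mul, one_mul]
    intro w hw
    simp only [Finset.mem_filter, Finset.mem_univ, true_and] at hw ⊢
    exact center_le y hw
  have hs2 : s.card = (n * c - 1) * z := by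
    rw [Nat.sub_mul, one_mul, ← hG]; omega
  rw [hs2] at hd
  have h4 : c - 1 ∣ n * c - 1 := Nat.dvd_of_mul_dvd_mul_right hz0 hd
  have hc0 : 0 < c := Nat.pos_of_ne_zero (rne x)
  have h5 : n * c - 1 = n * (c - 1) + (n - 1) := by
    rw [Nat.mul_sub, mul_one]
    have : n ≤ n * c := Nat.le_mul_of_pos_right n hc0
    omega
  rw [h5] at h4
  have h6 := (Nat.dvd_add_right (Dvd.intro_left n rfl)).1 h4
  have h7 := Nat.le_of_dvd (by omega) h6
  omega

include h hab hpq in
theorem bound {x : G} (hx : x ∉ center G) (hpc : p ∣ (center G).relIndex (C x)) (hqc : q ∣ (center G).relIndex (C x)) :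
    p ^ (n.factorization p) < q ^ (((center G).relIndex (C x)).factorization q) := by
  classical
  obtain ⟨w, -, hwc, a, hwo⟩ := exists_in_C h hpc
  let P : Sylow p G := default
  have hPZ : ¬ (P : Subgroup G) ≤ center G := by
    intro hle
    obtain ⟨Q, hQ⟩ := (H24.Tools.isPGroup_zpowers hwo).exists_le_sylow
    obtain ⟨g, hg⟩ := MulAction.exists_smul_eq G P Q
    have h1 : w ∈ (Q : Subgroup G) := hQ (mem_zpowers w)
    rw [← hg] at h1
    have h2 : g⁻¹ * w * g ∈ (P : Subgroup G) := (H2.Basic.mem_smul_sylow P g w).1 h1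
    have h3 := (inferInstance : (center G).Normal).conj_mem _ (hle h2) g
    have h4 : g * (g⁻¹ * w * g) * g⁻¹ = w := by group
    rw [h4] at h3
    exact hwc h3
  -- the element z
  obtain ⟨z, hzP, hzc, hzcomm⟩ : ∃ z ∈ (P : Subgroup G), z ∉ center G ∧ ∀ u ∈ (P : Subgroup G), u * z * u⁻¹ * z⁻¹ ∈ center G := by
    set Z' := (center G).subgroupOf (P : Subgroup G) with hZ'
    have hqp : IsPGroup p ((P : Subgroup G) ⧸ Z') := P.2.to_quotient Z'
    haveI : Nontrivial ((P : Subgroup G) ⧸ Z') := by
      rw [QuotientGroup.nontrivial_iff]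
      intro h1
      exact hPZ (subgroupOf_eq_top.1 h1)
    haveI := hqp.center_nontrivial
    obtain ⟨⟨zb, hzb⟩, hzb1⟩ := exists_ne (1 : center ((P : Subgroup G) ⧸ Z'))
    obtain ⟨z, rfl⟩ := QuotientGroup.mk'_surjective Z' zb
    refine ⟨z, z.2, ?_, ?_⟩
    · intro h1
      exact hzb1 (Subtype.ext ((QuotientGroup.eq_one_iff z).2 h1))
    · intro u hu
      obtain ⟨u', hu'⟩ : ∃ u' : (P : Subgroup G), (u' : G) = u := ⟨⟨u, hu⟩, rfl⟩
      have h1 := Subgroup.mem_center_iff.1 hzb (QuotientGroup.mk' Z' u')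
      have h2 : QuotientGroup.mk' Z' (u' * z * u'⁻¹ * z⁻¹) = 1 := by
        rw [map_mul, map_mul, map_mul, h1, map_inv, map_inv]; group
      have h3 := mem_subgroupOf.1 ((QuotientGroup.eq_one_iff (u' * z * u'⁻¹ * z⁻¹)).1 h2)
      rw [← hu']
      exact h3
  rw [relIndex_eq h hx hzc] at hqc ⊢
  set X := C z with hX
  have hXn : ∀ u ∈ (P : Subgroup G), ∀ v ∈ X, u * v * u⁻¹ ∈ X := by
    intro u hu v hv
    rw [mem_C] at hv ⊢
    have h1 := hzcomm u⁻¹ (inv_mem hu)
    rw [inv_inv] at h1
    -- u⁻¹ z u = ζ z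
    obtain ⟨ζ, hζ⟩ : ∃ ζ, ζ = u⁻¹ * z * u * z⁻¹ := ⟨_, rfl⟩
    rw [← hζ] at h1
    have h2 : u⁻¹ * z * u = ζ * z := by rw [hζ]; group
    have h3 := Subgroup.mem_center_iff.1 h1
    have h4 : v * (u⁻¹ * z * u) = (u⁻¹ * z * u) * v := by
      rw [h2, ← mul_assoc, h3 v, mul_assoc, hv, mul_assoc]
    calc u * v * u⁻¹ * z = u * (v * (u⁻¹ * z * u)) * u⁻¹ := by group
      _ = u * ((u⁻¹ * z * u) * v) * u⁻¹ := by rw [h4]
      _ = z * (u * v * u⁻¹) := by group
  letI act : MulAction (P : Subgroup G) G := MulAction.compHom G ((MulAut.conj (G := G)).comp (P : Subgroup G).subtype)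
  have hact : ∀ (u : (P : Subgroup G)) (v : G), u • v = (u : G) * v * (u : G)⁻¹ := fun u v => rfl
  let T : G → Prop := fun v => v ∈ X ∧ v ∉ center G ∧ ∃ k, orderOf v = q ^ k
  have hT : ∀ (u : (P : Subgroup G)) (v : G), T v → T (u • v) := by
    rintro u v ⟨h1, h2, k, h3⟩
    rw [hact]
    refine ⟨hXn u u.2 v h1, ?_, k, by rw [H24.Tools.orderOf_conj, h3]⟩
    intro h4
    apply h2
    have h5 := (inferInstance : (center G).Normal).conj_mem _ h4 (u : G)⁻¹
    have h6 : (u : G)⁻¹ * ((u : G) * v * (u : G)⁻¹) * (u : G)⁻¹⁻¹ = v := by group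
    rwa [h6] at h5
  have hcardG : Nat.card X * n = Nat.card G := card_C h hzc
  have hn0 : n ≠ 0 := by
    rintro rfl
    rw [mul_zero] at hcardG
    exact Nat.card_pos.ne hcardG
  have hd : p ^ (n.factorization p) ∣ Nat.card {v // T v} := by
    apply H23.Wielandt.dvd_card_of_orbits T hT
    rintro v ⟨hvX, hvc, -⟩
    have h1 : (MulAction.stabilizer (P : Subgroup G) v) = X.subgroupOf (P : Subgroup G) := by
      ext u
      rw [MulAction.mem_stabilizer_iff, hact, mem_subgroupOf, show X = C v from (C_eq h hab hzc hvc hvX).symm, mem_C, mul_inv_eq_iff_eq_mul]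
    rw [h1]
    have h2 : Nat.card (X.subgroupOf (P : Subgroup G)) * (X.subgroupOf (P : Subgroup G)).index = Nat.card P := card_mul_index _
    have h3 : IsPGroup p (X.subgroupOf (P : Subgroup G)) := P.2.to_subgroup _
    obtain ⟨j, hj⟩ := IsPGroup.iff_card.1 h3
    have h4 : Nat.card (X.subgroupOf (P : Subgroup G)) ∣ Nat.card X := by
      have h5 : Nat.card (X.subgroupOf (P : Subgroup G)) = Nat.card (X ⊓ (P : Subgroup G) : Subgroup G) := by
        rw [← Subgroup.subgroupOf_map_subtype, Subgroup.card_map_of_injective (Subgroup.subtype_injective _)]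
      rw [h5]
      exact Subgroup.card_dvd_of_le inf_le_left
    have h5 : j ≤ (Nat.card X).factorization p := by
      rw [hj] at h4
      exact (hp.out.pow_dvd_iff_le_factorization Nat.card_pos.ne').1 h4
    have h6 : (Nat.card G).factorization p = (Nat.card X).factorization p + n.factorization p := by
      rw [← hcardG, Nat.factorization_mul Nat.card_pos.ne' hn0]; rfl
    have h7 : Nat.card P = p ^ (Nat.card G).factorization p := P.card_eq_multiplicity
    have h8 : p ^ (j + n.factorization p) ∣ p ^ j * (X.subgroupOf (P : Subgroup G)).index := by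
      rw [← hj, h2, h7]
      exact pow_dvd_pow p (by omega)
    rw [pow_add] at h8
    exact Nat.dvd_of_mul_dvd_mul_left (pow_pos hp.out.pos j) h8
  -- count T
  haveI hXc : IsMulCommutative X := ⟨⟨fun a b => Subtype.ext (hab z hzc a a.2 b b.2)⟩⟩
  let RX : Sylow q X := default
  let RZ : Sylow q (center G) := default
  have hRXn : (RX : Subgroup X).Normal := inferInstance
  have hRZn : (RZ : Subgroup (center G)).Normal := inferInstance
  have hmemX : ∀ v, v ∈ (RX : Subgroup X).map X.subtype ↔ v ∈ X ∧ ∃ k, orderOf v = q ^ k := by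
    intro v
    constructor
    · rintro ⟨v, hv, rfl⟩
      obtain ⟨k, hk⟩ := IsPGroup.iff_orderOf.1 RX.2 ⟨v, hv⟩
      refine ⟨v.2, k, ?_⟩
      rw [← hk, ← orderOf_coe, ← orderOf_coe]; rfl
    · rintro ⟨hv, k, hk⟩
      refine ⟨⟨v, hv⟩, ?_, rfl⟩
      apply H1.Nilp.mem_sylow_of_normal _ hRXn
      apply H24.Tools.isPGroup_zpowers (k := k)
      rw [← hk, ← orderOf_coe]
  have hmemZ : ∀ v, v ∈ (RZ : Subgroup (center G)).map (center G).subtype ↔ v ∈ center G ∧ ∃ k, orderOf v = q ^ k := by
    intro v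
    constructor
    · rintro ⟨v, hv, rfl⟩
      obtain ⟨k, hk⟩ := IsPGroup.iff_orderOf.1 RZ.2 ⟨v, hv⟩
      refine ⟨v.2, k, ?_⟩
      rw [← hk, ← orderOf_coe, ← orderOf_coe]; rfl
    · rintro ⟨hv, k, hk⟩
      refine ⟨⟨v, hv⟩, ?_, rfl⟩
      apply H1.Nilp.mem_sylow_of_normal _ hRZn
      apply H24.Tools.isPGroup_zpowers (k := k)
      rw [← hk, ← orderOf_coe]
  have hTset : {v | T v} = ((RX : Subgroup X).map X.subtype : Set G) \ ((RZ : Subgroup (center G)).map (center G).subtype : Set G) := by
    ext v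
    rw [Set.mem_diff, SetLike.mem_coe, SetLike.mem_coe, hmemX, hmemZ]
    constructor
    · rintro ⟨h1, h2, h3⟩; exact ⟨⟨h1, h3⟩, fun h4 => h2 h4.1⟩
    · rintro ⟨⟨h1, h3⟩, h2⟩; exact ⟨h1, fun h4 => h2 ⟨h4, h3⟩, h3⟩
  have hTcard : Nat.card {v // T v} = q ^ (Nat.card X).factorization q - q ^ (Nat.card (center G)).factorization q := by
    have h1 : Nat.card {v // T v} = Set.ncard {v | T v} := rfl
    rw [h1, hTset, Set.ncard_sdiff]
    · have e1 : ((RX : Subgroup X).map X.subtype : Set G).ncard = q ^ (Nat.card X).factorization q := by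
        change Nat.card ((RX : Subgroup X).map X.subtype) = _
        rw [Subgroup.card_map_of_injective X.subtype_injective]
        exact RX.card_eq_multiplicity
      have e2 : ((RZ : Subgroup (center G)).map (center G).subtype : Set G).ncard = q ^ (Nat.card (center G)).factorization q := by
        change Nat.card ((RZ : Subgroup (center G)).map (center G).subtype) = _
        rw [Subgroup.card_map_of_injective (center G).subtype_injective]
        exact RZ.card_eq_multiplicity
      rw [e1, e2]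
    · intro v hv
      rw [SetLike.mem_coe, hmemZ] at hv
      rw [SetLike.mem_coe, hmemX]
      exact ⟨center_le z hv.1, hv.2⟩
  have hcz : (Nat.card X).factorization q = ((center G).relIndex X).factorization q + (Nat.card (center G)).factorization q := by
    rw [hX, ← card_factor (x := z) 0, Nat.factorization_mul (rne z) Nat.card_pos.ne']; rfl
  rw [hTcard, hcz, pow_add] at hd
  set e := ((center G).relIndex X).factorization q with he
  set b := (Nat.card (center G)).factorization q with hb
  have he0 : e ≠ 0 := (hq.out.factorization_pos_of_dvd (rne z) hqc).ne'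
  have h1 : q ^ e * q ^ b - q ^ b = (q ^ e - 1) * q ^ b := by rw [Nat.sub_mul, one_mul]
  rw [h1] at hd
  have hco : Nat.Coprime (p ^ (n.factorization p)) (q ^ b) := Nat.Coprime.pow _ _ ((Nat.coprime_primes hp.out hq.out).2 hpq)
  have h2 := hco.dvd_of_dvd_mul_right hd
  have h3 : 1 < q ^ e := Nat.one_lt_pow he0 hq.out.one_lt
  have h4 := Nat.le_of_dvd (by omega) h2
  omega

end two

include h in
/-- only one prime can have noncentral elements -/
theorem unique_prime (hn : 1 < n) {p q : ℕ} [hp : Fact p.Prime] [hq : Fact q.Prime] {x y : G} (hx : x ∉ center G) (hy : y ∉ center G)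
    (hxo : ∃ a, orderOf x = p ^ a) (hyo : ∃ b, orderOf y = q ^ b) : p = q := by
  by_contra hpq
  have hab : ∀ v : G, v ∉ center G → ∀ a ∈ C v, ∀ b ∈ C v, a * b = b * a := fun v hv => comm_C h hpq hx hy hxo hyo hv
  have h1 := c_le_n h hab hn hx
  have h2 := nt n ((center G).relIndex (C x)) (by omega) (rne x) ?_
    ⟨p, q, hp.out, hq.out, hpq, dvd_c h hx hxo hx, dvd_c h hy hyo hx⟩ ?_
  · omega
  · intro r hr hrn
    haveI : Fact r.Prime := ⟨hr⟩
    let P : Sylow r G := default
    have h3 : ¬ (P : Subgroup G) ≤ center G := by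
      intro hle
      have h4 : (C x).index ∣ (P : Subgroup G).index := Subgroup.index_dvd_of_le (hle.trans (center_le x))
      rw [index_eq h hx] at h4
      exact P.not_dvd_index (hrn.trans h4)
    rw [SetLike.not_le_iff_exists] at h3
    obtain ⟨w, hwP, hw⟩ := h3
    exact dvd_c h hw (H24.Tools.exists_orderOf P.2 hwP) hx
  · intro r s hr hs hrs hrc hsc
    haveI : Fact r.Prime := ⟨hr⟩
    haveI : Fact s.Prime := ⟨hs⟩
    exact bound h hrs hab hx hrc hsc

end Cfsg.Agent.H23.TwoSizes
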