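import Cfsg.Agent.H23_RealInv
import Cfsg.Agent.H23_ClassSize
import Cfsg.Agent.H3_GK
import Cfsg.Agent.H1_Deg
import Cfsg.Agent.H26_Basic
import Cfsg.Agent.H10_CycTI

set_option autoImplicit false
set_option linter.style.haveILetI false

namespace Cfsg.Agent.H23.UniqueP

open Cfsg Cfsg.Agent.H3.CharBasic Cfsg.Agent.H3.CharIrr Cfsg.Agent.H3.CharComplete
  Cfsg.Agent.H3.CharInd Cfsg.Agent.H3.CharMult Cfsg.Agent.H3.Clifford Cfsg.Agent.H3.CharInt
  Cfsg.Agent.H3.CharQuot Cfsg.Agent.H3.Lift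
open scoped ComplexConjugate

theorem partA {G : Type*} [Group G] [Finite G] (p : ℕ) [Fact p.Prime]
    (hnil : ¬ Group.IsNilpotent G) (N : Subgroup G) [hNn : N.Normal]
    (k : ℕ) (hidx : N.index = p ^ k)
    (hone : Nat.card {χ : IrrCharacter G // p ∣ charDegree (χ : G → ℂ)} = 1) :
    ∀ a b : G ⧸ N, a * b = b * a := by
  classical
  haveI := Fintype.ofFinite G
  haveI : Fintype N := Fintype.ofFinite N
  have hp : p.Prime := Fact.out
  by_contra hne
  apply hne
  have hlin : ∀ χ : (G ⧸ N) → ℂ, IsIrrCharacter (G ⧸ N) χ → χ 1 = 1 := by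
    intro β hβ
    by_contra hβ1
    obtain ⟨d, hd1, hd2, hd3⟩ := IsIrr.dvd_card hβ
    have hpd : p ∣ d := by
      have h1 : d ∣ p ^ k := by
        rw [← hidx]; exact hd3
      obtain ⟨j, -, hj⟩ := (Nat.dvd_prime_pow hp).mp h1
      rcases Nat.eq_zero_or_pos j with h0 | h0
      · exfalso
        apply hβ1
        rw [hd2, hj, h0]; simp
      · rw [hj]; exact dvd_pow_self p h0.ne'
    set ψ : G → ℂ := fun g => β (g : G ⧸ N) with hψdef
    have hψ : IsIrrCharacter G ψ := IsIrr.inflate hβ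
    have hψN : InKer N ψ := by
      intro n hn g
      show β ((n * g : G) : G ⧸ N) = β (g : G ⧸ N)
      rw [QuotientGroup.mk_mul, (QuotientGroup.eq_one_iff n).mpr hn, one_mul]
    have hψn : ∀ n ∈ N, ψ n = d := by
      intro n hn
      show β (n : G ⧸ N) = d
      rw [(QuotientGroup.eq_one_iff n).mpr hn, hd2]
    have hψ1 : ψ 1 = d := hψn 1 N.one_mem
    have hψd : charDegree ψ = d := H1.Deg.deg_eq hψ1
    have huniq : ∀ χ : G → ℂ, IsIrrCharacter G χ → p ∣ charDegree χ → χ = ψ := by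
      intro χ hχ hpχ
      have hsub := (Nat.card_eq_one_iff_unique.mp hone).1
      have := @Subsingleton.elim _ hsub ⟨⟨χ, hχ⟩, hpχ⟩ ⟨⟨ψ, hψ⟩, by rw [hψd]; exact hpd⟩
      exact congrArg (fun z => (z.1.1 : G → ℂ)) this
    have hd0 : (d : ℂ) ≠ 0 := by
      rw [← hψ1]; exact IsIrr.one_ne_zero hψ
    have hall : ∀ θ : N → ℂ, IsIrrCharacter N θ → ∀ n, θ n = 1 := by
      intro θ hθ n
      obtain ⟨χ, hχ, h1⟩ := exists_constituent_ind (H := N) hθ
      rw [constituent_ind_iff (IsIrr.isCharacter hχ)] at h1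
      by_cases hpχ : p ∣ charDegree χ
      · have h2 := huniq χ hχ hpχ
        by_contra hne1
        have h3 : θ ≠ fun _ => 1 := fun h => hne1 (by rw [h])
        apply h1
        have h4 : (fun h : N => χ h) = (d : ℂ) • (fun _ : N => (1 : ℂ)) := by
          funext m
          rw [h2, hψn m m.2]
          simp
        rw [h4, ci_smul_left, ci_irr_ne (isIrr_one) hθ (Ne.symm h3), mul_zero]
      · obtain ⟨b, hb, hbi⟩ := degree_dvd N hχ hθ h1
        obtain ⟨e, he0, he⟩ := IsIrr.one_eq_nat hχ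
        obtain ⟨e', he0', he'⟩ := IsIrr.one_eq_nat hθ
        have hdb : e = b * e' := by rw [he, he'] at hb; exact_mod_cast hb
        have hχe : charDegree χ = e := H1.Deg.deg_eq he
        rw [hχe] at hpχ
        have hb1 : b = 1 := by
          rw [hidx] at hbi
          obtain ⟨j, -, hj⟩ := (Nat.dvd_prime_pow hp).mp hbi
          rcases Nat.eq_zero_or_pos j with h0 | h0
          · rw [hj, h0, pow_zero]
          · exfalso
            apply hpχ
            rw [hdb, hj]
            exact (dvd_pow_self p h0.ne').mul_right _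
        rw [hb1, one_mul] at hdb
        have hres : (fun n : N => χ n) = θ := by
          have h3 := clifford_degree hNn hχ hθ h1
          obtain ⟨m, hm⟩ := ci_char_nat (IsChar.res (IsIrr.isCharacter hχ) N) (IsIrr.isCharacter hθ)
          rw [hm, he, he', hdb] at h3
          have h4 : m * (inertia hNn θ).index = 1 := by
            have h5 : (e' : ℂ) * 1 = e' * (m * (inertia hNn θ).index : ℕ) := by
              push_cast; rw [mul_one]; rw [mul_comm (e' : ℂ)]; exact h3
            have h6 := mul_left_cancel₀ (by exact_mod_cast he0'.ne' : (e' : ℂ) ≠ 0) h5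
            exact_mod_cast h6.symm
          have h5 : m = 1 := Nat.dvd_one.mp (Dvd.intro _ h4)
          have h6 : (inertia hNn θ).index = 1 := by rw [h5, one_mul] at h4; exact h4
          have h7 := clifford_invariant hNn hχ hθ h1 (fun g => by
            have : g ∈ inertia hNn θ := by rw [Subgroup.index_eq_one.mp h6]; trivial
            exact this)
          rw [h7, hm, h5]; simp
        have hprod : IsIrrCharacter G (ψ * χ) :=
          gallagher_irr hNn hχ (by rw [hres]; exact hθ) hψ hψN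
        have hprod1 : (ψ * χ) 1 = ((d * e : ℕ) : ℂ) := by
          rw [Pi.mul_apply, hψ1, he]; push_cast; rfl
        have h8 := huniq _ hprod (by
          rw [H1.Deg.deg_eq hprod1]
          exact hpd.mul_right _)
        have h9 := congrFun h8 (n : G)
        rw [Pi.mul_apply, hψn n n.2] at h9
        have h10 : χ (n : G) = 1 := by
          apply mul_left_cancel₀ hd0
          rw [h9, mul_one]
        have h11 := congrFun hres n
        rw [← h11]; exact h10
    have hNbot : N = ⊥ := by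
      rw [eq_bot_iff]
      intro x hx
      have h1 : (⟨x, hx⟩ : N) = 1 := H1.Deg.eq_one_of_forall_irr (fun χ hχ => by
        rw [hall χ hχ, hall χ hχ])
      rw [Subgroup.mem_bot]
      exact congrArg Subtype.val h1
    apply hnil
    have hcard : Nat.card G = p ^ k := by
      rw [← hidx, hNbot, Subgroup.index_bot]
    exact (IsPGroup.of_card hcard).isNilpotent
  exact H1.Deg.comm_of_linear hlin

/-- number of invariant irreducible characters of a normal `p'`-subgroup -/
theorem inv_count {G : Type*} [Group G] [Finite G] (p : ℕ) [Fact p.Prime] (N P : Subgroup G)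
    [hNn : N.Normal] (hN : ¬ p ∣ Nat.card N) (hP : IsPGroup p P)
    (hNP : ∀ g : G, ∃ n ∈ N, ∃ x ∈ P, g = n * x) :
    Nat.card {θ : IrrCharacter N // ∀ (g : G) (n : N),
      (θ : N → ℂ) ⟨g * n * g⁻¹, hNn.conj_mem (n : G) n.2 g⟩ = (θ : N → ℂ) n} =
    Nat.card (ConjClasses (N ⊓ Subgroup.centralizer (P : Set G) : Subgroup G)) := by
  classical
  haveI := Fintype.ofFinite G
  haveI : Fintype N := Fintype.ofFinite N
  have hp : p.Prime := Fact.out
  set C : Subgroup G := N ⊓ Subgroup.centralizer (P : Set G) with hC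
  haveI : Fintype C := Fintype.ofFinite C
  have hCN : C ≤ N := inf_le_left
  have hcop : (Nat.card N).Coprime (Nat.card P) := by
    obtain ⟨n, hn⟩ := IsPGroup.iff_card.mp hP
    rw [hn]
    exact Nat.Coprime.pow_right n ((Nat.Prime.coprime_iff_not_dvd hp).mpr hN).symm
  obtain ⟨g1, -, g3, g4⟩ := Cfsg.Agent.S4444.result N P
    (fun s _ g hg => hNn.conj_mem g hg s) hcop p hp hP C hC hCN
  rw [← card_irr (G := C)]
  have hiff : ∀ θ : IrrCharacter N, (∀ (g : G) (n : N),
      (θ : N → ℂ) ⟨g * n * g⁻¹, hNn.conj_mem (n : G) n.2 g⟩ = (θ : N → ℂ) n) ↔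
      (∀ x ∈ P, ∀ k k' : N, (k' : G) = x * (k : G) * x⁻¹ → (θ : N → ℂ) k' = (θ : N → ℂ) k) := by
    intro θ
    constructor
    · intro h x _ k k' hk
      rw [← h x k]
      exact congrArg (θ : N → ℂ) (Subtype.ext hk)
    · intro h g n
      obtain ⟨m, hm, x, hx, rfl⟩ := hNP g
      rw [← h x hx n ⟨x * n * x⁻¹, hNn.conj_mem (n : G) n.2 x⟩ rfl]
      rw [← IsIrr.isClass θ.2 ⟨x * n * x⁻¹, hNn.conj_mem (n : G) n.2 x⟩ ⟨m, hm⟩]
      refine congrArg (θ : N → ℂ) (Subtype.ext ?_)
      push_cast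
      group
  have hex : ∀ θ : {θ : IrrCharacter N // ∀ (g : G) (n : N),
      (θ : N → ℂ) ⟨g * n * g⁻¹, hNn.conj_mem (n : G) n.2 g⟩ = (θ : N → ℂ) n},
      ∃ β : IrrCharacter C,
        ∃ m : ℕ, classInner (fun c : C => (θ.1 : N → ℂ) ⟨c, hCN c.2⟩) (β : C → ℂ) = (m : ℂ) ∧
          ¬ p ∣ m := by
    rintro ⟨θ, h1⟩
    obtain ⟨β, hβ, huniq⟩ := g1 θ ((hiff θ).mp h1)
    exact ⟨β, hβ⟩
  choose f hf using hex
  refine Nat.card_congr (Equiv.ofBijective f ⟨?_, ?_⟩)
  · intro θ θ' h
    apply Subtype.ext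
    obtain ⟨m, hm1, hm2⟩ := hf θ
    obtain ⟨m', hm1', hm2'⟩ := hf θ'
    rw [← h] at hm1'
    exact g3 θ.1 θ'.1 ((hiff _).mp θ.2) ((hiff _).mp θ'.2) (f θ) m m' hm1 hm2 hm1' hm2'
  · intro β
    obtain ⟨θ, hθ, m, hm1, hm2⟩ := g4 β
    refine ⟨⟨θ, (hiff θ).mpr hθ⟩, ?_⟩
    obtain ⟨β', hβ', huniq⟩ := g1 θ hθ
    exact (huniq _ (hf ⟨θ, (hiff θ).mpr hθ⟩)).trans (huniq β ⟨m, hm1, hm2⟩).symm

/-- number of classes of `p'`-size in `N ⋊ P`, `P` abelian -/
theorem class_count {G : Type*} [Group G] [Finite G] (p : ℕ) [Fact p.Prime] (N : Subgroup G)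
    [hNn : N.Normal] (P : Sylow p G) (hN : ¬ p ∣ Nat.card N)
    (hNP : ∀ g : G, ∃ n ∈ N, ∃ x ∈ P, g = n * x)
    (hab : ∀ a b : G ⧸ N, a * b = b * a) :
    Nat.card {D : ConjClasses G // ¬ p ∣ Nat.card D.carrier} =
    Nat.card (ConjClasses (N ⊓ Subgroup.centralizer ((P : Subgroup G) : Set G) : Subgroup G)) *
      Nat.card P := by
  classical
  haveI := Fintype.ofFinite G
  have hp : p.Prime := Fact.out
  obtain ⟨a, ha⟩ := IsPGroup.iff_card.mp P.isPGroup'
  have hcop : (Nat.card N).Coprime (Nat.card (P : Subgroup G)) := by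
    rw [ha]
    exact Nat.Coprime.pow_right a ((Nat.Prime.coprime_iff_not_dvd hp).mpr hN).symm
  have hdisj : ∀ x : G, x ∈ N → x ∈ P → x = 1 := by
    intro x hx1 hx2
    have := Subgroup.inf_eq_bot_of_coprime hcop
    have h1 : x ∈ N ⊓ (P : Subgroup G) := ⟨hx1, hx2⟩
    rw [this] at h1
    exact Subgroup.mem_bot.mp h1
  have habG : ∀ x y : G, x * y * (y * x)⁻¹ ∈ N := by
    intro x y
    rw [← QuotientGroup.eq_one_iff]
    rw [QuotientGroup.mk_mul, QuotientGroup.mk_mul, QuotientGroup.mk_inv, QuotientGroup.mk_mul,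
      hab x y]
    exact mul_inv_cancel _
  have hPab : ∀ x ∈ P, ∀ y ∈ P, x * y = y * x := by
    intro x hx y hy
    have h1 := hdisj _ (habG x y) (P.mul_mem (P.mul_mem hx hy) (P.inv_mem (P.mul_mem hy hx)))
    exact mul_inv_eq_one.mp h1
  set C : Subgroup G := N ⊓ Subgroup.centralizer ((P : Subgroup G) : Set G) with hC
  have hCN : C ≤ N := inf_le_left
  have hCP : ∀ c ∈ C, ∀ x ∈ P, x * c = c * x := by
    intro c hc x hx
    have h1 : c ∈ Subgroup.centralizer ((P : Subgroup G) : Set G) := hc.2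
    exact Subgroup.mem_centralizer_iff.mp h1 x hx
  have hmk : ∀ g : G, Nat.card (ConjClasses.mk g).carrier =
      (Subgroup.centralizer ({g} : Set G)).index := fun g => H26.Basic.card_carrier_mk g
  have hnd : ∀ c ∈ C, ∀ x ∈ P, ¬ p ∣ Nat.card (ConjClasses.mk (c * x)).carrier := by
    intro c hc x hx
    rw [hmk]
    apply H23.ClassSize.not_dvd_of_centralizes (c * x) P
    intro y hy
    rw [← mul_assoc, hCP c hc y hy, mul_assoc, hPab y hy x hx, ← mul_assoc]
  -- CRT exponent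
  obtain ⟨m, hm1, hm2⟩ := Nat.chineseRemainder hcop 1 0
  have hpowm : ∀ c ∈ C, ∀ x ∈ P, (c * x) ^ m = c := by
    intro c hc x hx
    have hcm : Commute c x := (hCP c hc x hx).symm
    rw [hcm.mul_pow]
    have h1 : c ^ m = c := by
      have h2 : c ^ Nat.card N = 1 := by
        have : (⟨c, hCN hc⟩ : N) ^ Nat.card N = 1 := pow_card_eq_one'
        exact congrArg Subtype.val this
      have h3 : c ^ m = c ^ 1 := by
        rw [pow_eq_pow_iff_modEq]
        exact Nat.ModEq.of_dvd (orderOf_dvd_of_pow_eq_one h2) hm1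
      rw [h3, pow_one]
    have h4 : x ^ m = 1 := by
      have h2 : x ^ Nat.card (P : Subgroup G) = 1 := by
        have : (⟨x, hx⟩ : (P : Subgroup G)) ^ Nat.card (P : Subgroup G) = 1 := pow_card_eq_one'
        exact congrArg Subtype.val this
      rw [← orderOf_dvd_iff_pow_eq_one]
      exact (orderOf_dvd_of_pow_eq_one h2).trans ((Nat.modEq_zero_iff_dvd).mp hm2)
    rw [h1, h4, mul_one]
  rw [← Nat.card_prod]
  symm
  let out : ConjClasses C → C := Quotient.out
  have hout : ∀ D, ConjClasses.mk (out D) = D := fun D => Quotient.out_eq D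
  refine Nat.card_congr (Equiv.ofBijective (fun Dx : ConjClasses C × P =>
    (⟨ConjClasses.mk ((out Dx.1 : G) * (Dx.2 : G)), hnd _ (out Dx.1).2 _ Dx.2.2⟩ :
      {D : ConjClasses G // ¬ p ∣ Nat.card D.carrier})) ⟨?_, ?_⟩)
  · rintro ⟨D, x⟩ ⟨D', x'⟩ h
    have h1 : ConjClasses.mk ((out D : G) * (x : G)) = ConjClasses.mk ((out D' : G) * (x' : G)) :=
      congrArg (fun z => z.1) h
    rw [ConjClasses.mk_eq_mk_iff_isConj, isConj_iff] at h1
    obtain ⟨g, hg⟩ := h1
    have hx : (x : G) = x' := by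
      have h2 : (x : G) * (x' : G)⁻¹ ∈ N := by
        rw [← QuotientGroup.eq_one_iff]
        have h3 := congrArg (fun z : G => (z : G ⧸ N)) hg
        simp only [QuotientGroup.mk_mul, QuotientGroup.mk_inv] at h3
        have h4 : ∀ c : C, ((c : G) : G ⧸ N) = 1 := fun c =>
          (QuotientGroup.eq_one_iff _).mpr (hCN c.2)
        rw [h4, h4, one_mul, one_mul, hab, ← mul_assoc, inv_mul_cancel, one_mul] at h3
        rw [QuotientGroup.mk_mul, QuotientGroup.mk_inv, h3, mul_inv_cancel]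
      exact mul_inv_eq_one.mp (hdisj _ h2 (P.mul_mem x.2 (P.inv_mem x'.2)))
    have hc : g * (out D : G) * g⁻¹ = out D' := by
      have h2 := congrArg (fun z => z ^ m) hg
      simp only [conj_pow] at h2
      rw [hpowm _ (out D).2 _ x.2, hpowm _ (out D').2 _ x'.2] at h2
      exact h2
    obtain ⟨n, hn, y, hy, rfl⟩ := hNP g
    have hc' : n * (out D : G) * n⁻¹ = out D' := by
      rw [← hc]
      have : y * (out D : G) * y⁻¹ = out D := by
        rw [hCP _ (out D).2 y hy]; group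
      calc n * (out D : G) * n⁻¹ = n * (y * (out D : G) * y⁻¹) * n⁻¹ := by rw [this]
        _ = n * y * (out D : G) * (n * y)⁻¹ := by group
    have hfixC : ∀ c : C, ∀ x ∈ (P : Subgroup G), x * (c : G) * x⁻¹ = c := by
      intro c x hx
      rw [hCP c c.2 x hx]; group
    obtain ⟨d, hd1, hd2, hd3⟩ := RealInv.conj_fix (p := p) (P := (P : Subgroup G)) (K := N)
      P.isPGroup' hN (by rw [Subgroup.normalizer_eq_top]; exact le_top)
      (⟨out D, hCN (out D).2⟩ : N) ⟨out D', hCN (out D').2⟩ (hfixC _) (hfixC _)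
      (isConj_iff.mpr ⟨⟨n, hn⟩, Subtype.ext hc'⟩)
    have hdC : d ∈ C := by
      refine ⟨hd1, ?_⟩
      show d ∈ Subgroup.centralizer ((P : Subgroup G) : Set G)
      rw [Subgroup.mem_centralizer_iff]
      intro x hx
      calc x * d = (x * d * x⁻¹) * x := by group
        _ = d * x := by rw [hd2 x hx]
    have hDD : D = D' := by
      rw [← hout D, ← hout D', ConjClasses.mk_eq_mk_iff_isConj, isConj_iff]
      exact ⟨⟨d, hdC⟩, Subtype.ext hd3⟩
    rw [hDD, Subtype.ext hx]
  · rintro ⟨D, hD⟩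
    obtain ⟨g, rfl⟩ := ConjClasses.exists_rep D
    have hD' : ¬ p ∣ (Subgroup.centralizer ({g} : Set G)).index := by
      rw [← hmk]; exact hD
    obtain ⟨Q, hQ⟩ := H23.ClassSize.exists_sylow_centralizes g hD'
    obtain ⟨h, hh⟩ := MulAction.exists_smul_eq G Q P
    -- P centralizes h g h⁻¹
    have hPg : ∀ y ∈ P, y * (h * g * h⁻¹) = (h * g * h⁻¹) * y := by
      intro y hy
      rw [← hh] at hy
      have hy' : h⁻¹ * y * h ∈ Q := by
        have h1 : y ∈ ((h • Q : Sylow p G) : Subgroup G) := hy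
        rw [Sylow.coe_subgroup_smul, Subgroup.mem_pointwise_smul_iff_inv_smul_mem] at h1
        have h3 : h⁻¹ * y * h ∈ (Q : Subgroup G) := by simpa [MulAut.smul_def] using h1
        exact h3
      have h2 := hQ _ hy'
      calc y * (h * g * h⁻¹) = h * ((h⁻¹ * y * h) * g) * h⁻¹ := by group
        _ = h * (g * (h⁻¹ * y * h)) * h⁻¹ := by rw [h2]
        _ = (h * g * h⁻¹) * y := by group
    obtain ⟨n, hn, x, hx, hnx⟩ := hNP (h * g * h⁻¹)
    have hnC : n ∈ C := by
      refine ⟨hn, ?_⟩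
      show n ∈ Subgroup.centralizer ((P : Subgroup G) : Set G)
      rw [Subgroup.mem_centralizer_iff]
      intro y hy
      have h1 : n = (h * g * h⁻¹) * x⁻¹ := by rw [hnx]; group
      have h2 := hPg y hy
      have h3 := hPab y hy x⁻¹ (P.inv_mem hx)
      rw [h1, ← mul_assoc, h2, mul_assoc, h3, ← mul_assoc]
    obtain ⟨d, hd⟩ := isConj_iff.mp (ConjClasses.mk_eq_mk_iff_isConj.mp (hout (ConjClasses.mk (⟨n, hnC⟩ : C))))
    have hd' : (d : G) * (out (ConjClasses.mk (⟨n, hnC⟩ : C)) : G) * (d : G)⁻¹ = n :=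
      congrArg Subtype.val hd
    refine ⟨(ConjClasses.mk (⟨n, hnC⟩ : C), ⟨x, hx⟩), Subtype.ext ?_⟩
    show ConjClasses.mk ((out (ConjClasses.mk (⟨n, hnC⟩ : C)) : G) * x) = ConjClasses.mk g
    rw [ConjClasses.mk_eq_mk_iff_isConj]
    have e1 : IsConj g (n * x) := isConj_iff.mpr ⟨h, hnx⟩
    have e2 : IsConj ((out (ConjClasses.mk (⟨n, hnC⟩ : C)) : G) * x) (n * x) := by
      rw [isConj_iff]
      refine ⟨d, ?_⟩
      have h5 := hCP d d.2 x hx
      calc (d : G) * ((out (ConjClasses.mk (⟨n, hnC⟩ : C)) : G) * x) * (d : G)⁻¹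
          = ((d : G) * (out (ConjClasses.mk (⟨n, hnC⟩ : C)) : G) * (d : G)⁻¹) * ((d : G) * x * (d : G)⁻¹) := by group
        _ = n * x := by
          rw [hd', ← h5]; group
    exact e2.trans e1.symm

end Cfsg.Agent.H23.UniqueP
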