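import Mathlib
import Cfsg.Prelude.Def_CaseTheorems
import Cfsg.Agent.H1_Basic
import Cfsg.Agent.H2_PGroup

/-! Sectional rank via elementary abelian sections of subgroups. -/

set_option autoImplicit false

open Subgroup

namespace Cfsg.Agent.H24.SRank

universe u

variable {G : Type u} [Group G] {p k : ℕ}

/-- `A/B` is an elementary abelian section -/
structure Sec (p : ℕ) (A B : Subgroup G) : Prop where
  le : B ≤ A
  nrm : ∀ a ∈ A, ∀ b ∈ B, a * b * a⁻¹ ∈ B
  com : ∀ a ∈ A, ∀ a' ∈ A, a * a' * a⁻¹ * a'⁻¹ ∈ B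
  pow : ∀ a ∈ A, a ^ p ∈ B

theorem Sec.relIndex_le (hr : Cfsg.SectionalPRankLE p k G) {A B : Subgroup G} (h : Sec p A B) :
    B.relIndex A ≤ p ^ k := by
  haveI : (B.subgroupOf A).Normal := by
    constructor
    intro b hb a
    rw [mem_subgroupOf] at hb ⊢
    exact h.nrm a a.2 b hb
  have h1 := hr A (B.subgroupOf A) ⊤ ⟨⟨by
    rintro ⟨a, -⟩ ⟨b, -⟩
    apply Subtype.ext
    show a * b = b * a
    obtain ⟨a, rfl⟩ := QuotientGroup.mk_surjective a
    obtain ⟨b, rfl⟩ := QuotientGroup.mk_surjective b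
    rw [← QuotientGroup.mk_mul, ← QuotientGroup.mk_mul, QuotientGroup.eq, mem_subgroupOf]
    have := h.com (b⁻¹) (A.inv_mem b.2) (a⁻¹) (A.inv_mem a.2)
    rw [inv_inv, inv_inv] at this
    show ((a : G) * b)⁻¹ * (b * a) ∈ B
    have e : ((a : G) * b)⁻¹ * (b * a) = (b : G)⁻¹ * (a : G)⁻¹ * b * a := by group
    rw [e]; exact this⟩⟩ (by
    intro a _
    obtain ⟨a, rfl⟩ := QuotientGroup.mk_surjective a
    rw [← QuotientGroup.mk_pow, QuotientGroup.eq_one_iff, mem_subgroupOf]
    exact h.pow a a.2)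
  rw [card_top, ← index_eq_card] at h1
  exact h1

theorem of_sec (h : ∀ A B : Subgroup G, Sec p A B → B.relIndex A ≤ p ^ k) :
    Cfsg.SectionalPRankLE p k G := by
  intro H N hN A hA hAp
  let π : H →* H ⧸ N := QuotientGroup.mk' N
  have hπ : Function.Surjective π := QuotientGroup.mk'_surjective N
  let A' : Subgroup H := A.comap π
  have hNA : N ≤ A' := by
    intro x hx
    show π x ∈ A
    have : π x = 1 := (QuotientGroup.eq_one_iff x).2 hx
    rw [this]; exact A.one_mem
  have hsec : Sec p (A'.map H.subtype) (N.map H.subtype) := by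
    refine ⟨map_mono hNA, ?_, ?_, ?_⟩
    · rintro _ ⟨a, ha, rfl⟩ _ ⟨b, hb, rfl⟩
      exact ⟨a * b * a⁻¹, hN.conj_mem b hb a, rfl⟩
    · rintro _ ⟨a, ha, rfl⟩ _ ⟨b, hb, rfl⟩
      refine ⟨a * b * a⁻¹ * b⁻¹, ?_, rfl⟩
      show a * b * a⁻¹ * b⁻¹ ∈ N
      rw [← QuotientGroup.eq_one_iff]
      have ha' : π a ∈ A := ha
      have hb' : π b ∈ A := hb
      have h1 : π a * π b = π b * π a := by
        have := hA.is_comm.comm ⟨π a, ha'⟩ ⟨π b, hb'⟩
        exact congrArg Subtype.val this
      show π (a * b * a⁻¹ * b⁻¹) = 1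
      rw [map_mul, map_mul, map_mul, map_inv, map_inv, h1]; group
    · rintro _ ⟨a, ha, rfl⟩
      refine ⟨a ^ p, ?_, rfl⟩
      show a ^ p ∈ N
      rw [← QuotientGroup.eq_one_iff]
      show π (a ^ p) = 1
      rw [map_pow]
      exact hAp _ ha
  have h1 := h _ _ hsec
  have h2 : (N.map H.subtype).relIndex (A'.map H.subtype) = Nat.card A := by
    rw [relIndex_map_map_of_injective _ _ H.subtype_injective]
    have h3 : (N.relIndex A') = ((⊥ : Subgroup (H ⧸ N)).comap π).relIndex (A.comap π) := by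
      congr 1
      rw [MonoidHom.comap_bot, QuotientGroup.ker_mk']
    rw [h3, relIndex_comap, map_comap_eq_self_of_surjective hπ, relIndex_bot_left]
  rw [h2] at h1
  exact h1

/-- a normal subgroup of order `p` of a `p`-group -/
theorem center_le_of_card [Finite G] [hp : Fact p.Prime] (hG : IsPGroup p G) (hZ : Nat.card (center G) = p)
    {M : Subgroup G} [M.Normal] (hM : M ≠ ⊥) : center G ≤ M := by
  have h1 := H2.PGroup.inf_center_ne_bot hG hM
  have h2 : Nat.card (M ⊓ center G : Subgroup G) ∣ p := hZ ▸ card_dvd_of_le inf_le_right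
  rcases (Nat.dvd_prime hp.out).1 h2 with h3 | h3
  · exact absurd (card_eq_one.1 h3) h1
  · have h4 : M ⊓ center G = center G := by
      apply Subgroup.eq_of_le_of_card_ge inf_le_right
      rw [h3, hZ]
    rw [← h4]; exact inf_le_left

theorem four_le_index_frattini [Finite G] (hG : IsPGroup 2 G) (hab : ¬ IsMulCommutative G) :
    4 ≤ (frattini G).index := by
  haveI : Fact (Nat.Prime 2) := ⟨Nat.prime_two⟩
  by_contra hlt
  push Not at hlt
  apply hab
  have hx : ∃ x : G, zpowers x = ⊤ := by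
    by_cases h1 : frattini G = ⊤
    · refine ⟨1, ?_⟩
      apply frattini_nongenerating
      rw [h1, sup_top_eq]
    · have h2 : ∃ x, x ∉ frattini G := by
        by_contra h2; push Not at h2
        exact h1 (eq_top_iff.2 fun x _ => h2 x)
      obtain ⟨x, hx⟩ := h2
      refine ⟨x, ?_⟩
      apply frattini_nongenerating
      have h3 : frattini G < zpowers x ⊔ frattini G := by
        refine lt_of_le_of_ne le_sup_right fun h => hx ?_
        rw [h]
        exact mem_sup_left (mem_zpowers x)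
      have h4 : (zpowers x ⊔ frattini G).index * (frattini G).relIndex (zpowers x ⊔ frattini G) = (frattini G).index := by
        rw [mul_comm]; exact relIndex_mul_index h3.le
      have h5 : (frattini G).relIndex (zpowers x ⊔ frattini G) ≠ 1 := by
        rw [Ne, relIndex_eq_one]; exact not_le_of_gt h3
      have h6 : (frattini G).relIndex (zpowers x ⊔ frattini G) ≠ 0 := by
        intro h; rw [h, mul_zero] at h4
        exact index_ne_zero_of_finite h4.symm
      have h7 : (zpowers x ⊔ frattini G).index ≠ 0 := index_ne_zero_of_finite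
      rw [← index_eq_one]
      by_contra h8
      have h9 : 2 ≤ (zpowers x ⊔ frattini G).index := by omega
      have h10 : 2 ≤ (frattini G).relIndex (zpowers x ⊔ frattini G) := by omega
      nlinarith
  obtain ⟨x, hx⟩ := hx
  have hcy : IsCyclic G := ⟨x, fun y => by
    have : y ∈ zpowers x := by rw [hx]; trivial
    exact this⟩
  exact inferInstance

/-- a normal subgroup of order two is central -/
theorem central_of_card_two {N : Subgroup G} [hN : N.Normal] (h : Nat.card N = 2) : N ≤ center G := by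
  classical
  intro x hx
  rw [mem_center_iff]
  intro g
  by_cases hx1 : x = 1
  · rw [hx1]; group
  · have h1 : g * x * g⁻¹ ∈ N := hN.conj_mem x hx g
    have h2 : g * x * g⁻¹ ≠ 1 := by
      intro h3
      apply hx1
      calc x = g⁻¹ * (g * x * g⁻¹) * g := by group
        _ = 1 := by rw [h3]; group
    haveI : Finite N := Nat.finite_of_card_ne_zero (by rw [h]; norm_num)
    have h3 : g * x * g⁻¹ = x := by
      by_contra hne
      have hsub : ((({1, x, g * x * g⁻¹} : Finset G)) : Set G) ⊆ (N : Set G) := by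
        intro y hy
        simp only [Finset.coe_insert, Finset.coe_singleton, Set.mem_insert_iff, Set.mem_singleton_iff] at hy
        rcases hy with rfl | rfl | rfl
        · exact N.one_mem
        · exact hx
        · exact h1
      have hc := Set.ncard_le_ncard hsub (Set.toFinite _)
      rw [Set.ncard_coe_finset, Finset.card_insert_of_notMem, Finset.card_insert_of_notMem,
        Finset.card_singleton, ← Nat.card_coe_set_eq] at hc
      · have : Nat.card (N : Set G) = 2 := h
        omega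
      · rw [Finset.mem_singleton]; exact fun h => hne h.symm
      · rw [Finset.mem_insert, Finset.mem_singleton, not_or]
        exact ⟨fun h => hx1 h.symm, fun h => h2 h.symm⟩
    calc g * x = (g * x * g⁻¹) * g := by group
      _ = x * g := by rw [h3]

open scoped commutatorElement in
/-- The first half of S4400. -/
theorem disjoint_of [Finite G] (h2 : IsPGroup 2 G) (P Q : Subgroup G) [hPn : P.Normal] [hQn : Q.Normal]
    (hZP : Nat.card ↥(center ↥P) = 2) (hZQ : Nat.card ↥(center ↥Q) = 2)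
    (hne : (center ↥P).map P.subtype ≠ (center ↥Q).map Q.subtype) : P ⊓ Q = ⊥ := by
  haveI : Fact (Nat.Prime 2) := ⟨Nat.prime_two⟩
  by_contra hPQ
  have key : ∀ (P Q : Subgroup G) [P.Normal] [Q.Normal], Nat.card ↥(center ↥P) = 2 → P ⊓ Q ≠ ⊥ →
      (center ↥P).map P.subtype ≤ (center ↥Q).map Q.subtype := by
    intro P Q hPn hQn hZP hPQ
    have h1 : center P ≤ (P ⊓ Q).subgroupOf P := by
      apply center_le_of_card (h2.to_subgroup P) hZP
      intro h
      apply hPQ
      rw [subgroupOf_eq_bot, disjoint_iff] at h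
      rw [← h, inf_assoc, inf_comm Q, ← inf_assoc, inf_idem]
    haveI : ((center ↥P).map P.subtype).Normal := inferInstance
    have hc : Nat.card ((center ↥P).map P.subtype) = 2 := by
      rw [Nat.card_congr ((center P).equivMapOfInjective P.subtype P.subtype_injective).toEquiv.symm, hZP]
    have h3 := central_of_card_two hc
    rintro _ ⟨z, hz, rfl⟩
    have hzQ : (z : G) ∈ Q := (mem_inf.1 (mem_subgroupOf.1 (h1 hz))).2
    refine ⟨⟨z, hzQ⟩, ?_, rfl⟩
    have h4 := mem_center_iff.1 (h3 ⟨z, hz, rfl⟩)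
    show (⟨z, hzQ⟩ : Q) ∈ center Q
    rw [mem_center_iff]
    intro g
    exact Subtype.ext (h4 g)
  exact hne (le_antisymm (key P Q hZP hPQ) (key Q P hZQ (by rwa [inf_comm])))

/-- a section of rank five -/
theorem centralizer_le_of [Finite G] (h2 : IsPGroup 2 G) (hr : Cfsg.SectionalPRankLE 2 4 G)
    (P Q : Subgroup G) [hPn : P.Normal] [hQn : Q.Normal]
    (hP : ¬ IsMulCommutative ↥P) (hQ : ¬ IsMulCommutative ↥Q)
    (hZP : Nat.card ↥(center ↥P) = 2) (hZQ : Nat.card ↥(center ↥Q) = 2) (hPQ : P ⊓ Q = ⊥) :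
    centralizer ((P ⊔ Q : Subgroup G) : Set G) ≤ P ⊔ Q := by
  classical
  haveI : Fact (Nat.Prime 2) := ⟨Nat.prime_two⟩
  by_contra hcon
  obtain ⟨c₀, hc₀, hc₀W⟩ := SetLike.not_le_iff_exists.1 hcon
  have hcommPQ : ∀ x ∈ P, ∀ y ∈ Q, x * y = y * x := by
    intro x hx y hy
    have h1 : x * y * x⁻¹ * y⁻¹ ∈ P ⊓ Q := by
      refine mem_inf.2 ⟨?_, ?_⟩
      · have := P.mul_mem hx (hPn.conj_mem _ (P.inv_mem hx) y)
        have e : x * y * x⁻¹ * y⁻¹ = x * (y * x⁻¹ * y⁻¹) := by group
        rwa [e]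
      · exact Q.mul_mem (hQn.conj_mem y hy x) (Q.inv_mem hy)
    rw [hPQ, mem_bot] at h1
    calc x * y = (x * y * x⁻¹ * y⁻¹) * (y * x) := by group
      _ = y * x := by rw [h1, one_mul]
  have hW : ∀ w ∈ P ⊔ Q, ∃ x ∈ P, ∃ y ∈ Q, w = x * y := by
    intro w hw
    rw [← SetLike.mem_coe, Subgroup.normal_mul] at hw
    obtain ⟨x, hx, y, hy, e⟩ := Set.mem_mul.1 hw
    exact ⟨x, hx, y, hy, e.symm⟩
  -- c with c² ∈ W
  obtain ⟨c, hcC, hcW, hc2⟩ : ∃ c ∈ centralizer ((P ⊔ Q : Subgroup G) : Set G), c ∉ P ⊔ Q ∧ c * c ∈ P ⊔ Q := by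
    obtain ⟨k, hk⟩ := h2 c₀
    have hex : ∃ k, c₀ ^ 2 ^ k ∈ P ⊔ Q := ⟨k, by rw [hk]; exact one_mem _⟩
    have h1 := Nat.find_spec hex
    have h3 : Nat.find hex ≠ 0 := by
      intro h0
      rw [h0, pow_zero, pow_one] at h1
      exact hc₀W h1
    obtain ⟨m, hm⟩ := Nat.exists_eq_succ_of_ne_zero h3
    refine ⟨c₀ ^ 2 ^ m, pow_mem hc₀ _, Nat.find_min hex (by omega), ?_⟩
    rw [hm, pow_succ 2 m, pow_mul, pow_two] at h1
    exact h1
  have hcx : ∀ x ∈ P ⊔ Q, x * c = c * x := fun x hx => mem_centralizer_iff.1 hcC x hx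
  obtain ⟨a, ha, b, hb, hab⟩ := hW _ hc2
  let BP : Subgroup G := (frattini P).map P.subtype
  let BQ : Subgroup G := (frattini Q).map Q.subtype
  have hle : ∀ (R : Subgroup G), IsPGroup 2 R → (¬ IsMulCommutative ↥R) → Nat.card (center R) = 2 → center R ≤ frattini R := by
    intro R hR hRc hRZ
    have h1 : commutator R ≠ ⊥ := by
      intro h
      apply hRc
      refine ⟨⟨fun x y => ?_⟩⟩
      have h3 : x * y * x⁻¹ * y⁻¹ ∈ commutator R := commutator_mem_commutator (mem_top x) (mem_top y)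
      rw [h, mem_bot] at h3
      calc x * y = (x * y * x⁻¹ * y⁻¹) * (y * x) := by group
        _ = y * x := by rw [h3, one_mul]
    exact (center_le_of_card hR hRZ h1).trans (H2.PGroup.commutator_le_frattini hR)
  have haB : a ∈ BP := by
    refine ⟨⟨a, ha⟩, hle P (h2.to_subgroup P) hP hZP ?_, rfl⟩
    rw [mem_center_iff]
    intro x
    apply Subtype.ext
    show (x : G) * a = a * x
    have h1 : (x : G) * (c * c) = (c * c) * x := by
      rw [← mul_assoc, hcx x (mem_sup_left x.2), mul_assoc, hcx x (mem_sup_left x.2), mul_assoc]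
    rw [hab, ← mul_assoc, mul_assoc a, ← hcommPQ x x.2 b hb, ← mul_assoc] at h1
    exact mul_right_cancel h1
  have hbB : b ∈ BQ := by
    refine ⟨⟨b, hb⟩, hle Q (h2.to_subgroup Q) hQ hZQ ?_, rfl⟩
    rw [mem_center_iff]
    intro y
    apply Subtype.ext
    show (y : G) * b = b * y
    have h1 : (y : G) * (c * c) = (c * c) * y := by
      rw [← mul_assoc, hcx y (mem_sup_right y.2), mul_assoc, hcx y (mem_sup_right y.2), mul_assoc]
    rw [hab, ← mul_assoc, ← hcommPQ a ha y y.2, mul_assoc, mul_assoc] at h1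
    exact mul_left_cancel h1
  haveI hBPn : BP.Normal := inferInstance
  haveI hBQn : BQ.Normal := inferInstance
  let B : Subgroup G := BP ⊔ BQ
  haveI hBn : B.Normal := inferInstance
  let A : Subgroup G := (P ⊔ Q) ⊔ zpowers c
  have hA : ∀ w ∈ A, ∃ x ∈ P, ∃ y ∈ Q, ∃ i : ℤ, w = x * y * c ^ i := by
    intro w hw
    rw [← SetLike.mem_coe, Subgroup.normal_mul] at hw
    obtain ⟨u, hu, v, hv, e⟩ := Set.mem_mul.1 hw
    obtain ⟨x, hx, y, hy, e'⟩ := hW u hu
    obtain ⟨i, hi⟩ := mem_zpowers_iff.1 hv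
    exact ⟨x, hx, y, hy, i, by rw [← e, e', hi]⟩
  let π := QuotientGroup.mk' B
  have hπ1 : ∀ g, g ∈ B → π g = 1 := fun g hg => (QuotientGroup.eq_one_iff g).2 hg
  have hπ2 : ∀ g, π g = 1 → g ∈ B := fun g hg => (QuotientGroup.eq_one_iff g).1 hg
  have comm_of_mem : ∀ (g h : G), g * h * g⁻¹ * h⁻¹ ∈ B → Commute (π g) (π h) := by
    intro g h hgh
    have h1 := hπ1 _ hgh
    rw [map_mul, map_mul, map_mul, map_inv, map_inv] at h1
    show π g * π h = π h * π g
    calc π g * π h = (π g * π h * (π g)⁻¹ * (π h)⁻¹) * (π h * π g) := by group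
      _ = _ := by rw [h1, one_mul]
  have cxx : ∀ x ∈ P, ∀ x' ∈ P, Commute (π x) (π x') := by
    intro x hx x' hx'
    apply comm_of_mem
    apply mem_sup_left
    have h3 : (⟨x, hx⟩ : P) * ⟨x', hx'⟩ * (⟨x, hx⟩ : P)⁻¹ * (⟨x', hx'⟩ : P)⁻¹ ∈ commutator P :=
      commutator_mem_commutator (mem_top _) (mem_top _)
    exact ⟨_, H2.PGroup.commutator_le_frattini (h2.to_subgroup P) h3, rfl⟩
  have cyy : ∀ x ∈ Q, ∀ x' ∈ Q, Commute (π x) (π x') := by
    intro x hx x' hx'
    apply comm_of_mem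
    apply mem_sup_right
    have h3 : (⟨x, hx⟩ : Q) * ⟨x', hx'⟩ * (⟨x, hx⟩ : Q)⁻¹ * (⟨x', hx'⟩ : Q)⁻¹ ∈ commutator Q :=
      commutator_mem_commutator (mem_top _) (mem_top _)
    exact ⟨_, H2.PGroup.commutator_le_frattini (h2.to_subgroup Q) h3, rfl⟩
  have cxy : ∀ x ∈ P, ∀ y ∈ Q, Commute (π x) (π y) := by
    intro x hx y hy
    show π x * π y = π y * π x
    rw [← map_mul, ← map_mul, hcommPQ x hx y hy]
  have cxc : ∀ x ∈ P, Commute (π x) (π c) := by
    intro x hx
    show π x * π c = π c * π x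
    rw [← map_mul, ← map_mul, hcx x (mem_sup_left hx)]
  have cyc : ∀ y ∈ Q, Commute (π y) (π c) := by
    intro y hy
    show π y * π c = π c * π y
    rw [← map_mul, ← map_mul, hcx y (mem_sup_right hy)]
  have hcom : ∀ u ∈ A, ∀ v ∈ A, Commute (π u) (π v) := by
    intro u hu v hv
    obtain ⟨x, hx, y, hy, i, rfl⟩ := hA u hu
    obtain ⟨x', hx', y', hy', j, rfl⟩ := hA v hv
    rw [map_mul, map_mul, map_zpow, map_mul, map_mul, map_zpow]
    refine Commute.mul_left (Commute.mul_left ?_ ?_) ?_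
    · exact ((cxx x hx x' hx').mul_right (cxy x hx y' hy')).mul_right ((cxc x hx).zpow_right j)
    · exact (((cxy x' hx' y hy).symm).mul_right (cyy y hy y' hy')).mul_right ((cyc y hy).zpow_right j)
    · refine Commute.mul_right (Commute.mul_right ?_ ?_) ?_
      · exact ((cxc x' hx').symm.zpow_left i)
      · exact ((cyc y' hy').symm.zpow_left i)
      · exact (Commute.refl (π c)).zpow_zpow i j
  have hBA : B ≤ A := by
    apply sup_le
    · rintro _ ⟨x, -, rfl⟩
      exact mem_sup_left (mem_sup_left x.2)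
    · rintro _ ⟨x, -, rfl⟩
      exact mem_sup_left (mem_sup_right x.2)
  have hsec : Sec 2 A B := by
    refine ⟨hBA, fun a _ b hb => hBn.conj_mem b hb a, ?_, ?_⟩
    · intro u hu v hv
      apply hπ2
      rw [map_mul, map_mul, map_mul, map_inv, map_inv, (hcom u hu v hv).eq]; group
    · intro u hu
      apply hπ2
      obtain ⟨x, hx, y, hy, i, rfl⟩ := hA u hu
      have hx2 : π (x ^ 2) = 1 := by
        apply hπ1
        apply mem_sup_left
        exact ⟨(⟨x, hx⟩ : P) ^ 2, H2.PGroup.pow_mem_frattini (h2.to_subgroup P) ⟨x, hx⟩, rfl⟩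
      have hy2 : π (y ^ 2) = 1 := by
        apply hπ1
        apply mem_sup_right
        exact ⟨(⟨y, hy⟩ : Q) ^ 2, H2.PGroup.pow_mem_frattini (h2.to_subgroup Q) ⟨y, hy⟩, rfl⟩
      have hc2' : π (c ^ 2) = 1 := by
        apply hπ1
        rw [pow_two, hab]
        exact mul_mem (mem_sup_left haB) (mem_sup_right hbB)
      rw [map_pow, map_mul, map_mul, map_zpow]
      have e1 : Commute (π x * π y) (π c ^ i) := ((cxc x hx).mul_left (cyc y hy)).zpow_right i
      rw [e1.mul_pow, (cxy x hx y hy).mul_pow, ← map_pow, ← map_pow, hx2, hy2, one_mul, one_mul,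
        ← zpow_natCast, ← zpow_mul, mul_comm i, zpow_mul, zpow_natCast, ← map_pow, hc2', one_zpow]
  have h5 := hsec.relIndex_le hr
  -- counting
  have hcP : Nat.card BP * (frattini P).index = Nat.card P := by
    rw [← (frattini P).card_mul_index]
    congr 1
    exact (Nat.card_congr ((frattini P).equivMapOfInjective P.subtype P.subtype_injective).toEquiv).symm
  have hcQ : Nat.card BQ * (frattini Q).index = Nat.card Q := by
    rw [← (frattini Q).card_mul_index]
    congr 1
    exact (Nat.card_congr ((frattini Q).equivMapOfInjective Q.subtype Q.subtype_injective).toEquiv).symm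
  have h6 := four_le_index_frattini (h2.to_subgroup P) hP
  have h7 := four_le_index_frattini (h2.to_subgroup Q) hQ
  have h8 := H1.Basic.card_sup_mul_card_inf (H := P) (K := Q) (by rw [normalizer_eq_top]; exact le_top)
  rw [hPQ, card_bot, mul_one] at h8
  have h9 := H1.Basic.card_sup_mul_card_inf (H := BP) (K := BQ) (by rw [normalizer_eq_top]; exact le_top)
  have h10 : B.relIndex A * Nat.card B = Nat.card A := H1.Basic.relIndex_mul_card hBA
  have h11 : 2 * Nat.card (P ⊔ Q : Subgroup G) ≤ Nat.card A := by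
    have h12 : P ⊔ Q ≤ A := le_sup_left
    obtain ⟨m, hm⟩ := card_dvd_of_le h12
    have hpos : 0 < Nat.card A := Nat.card_pos
    have hm0 : m ≠ 0 := by rintro rfl; omega
    have hm1 : m ≠ 1 := by
      rintro rfl
      rw [mul_one] at hm
      have h13 := eq_of_le_of_card_ge h12 hm.le
      apply hcW
      rw [h13]
      exact mem_sup_right (mem_zpowers c)
    rw [hm, mul_comm 2]
    exact Nat.mul_le_mul_left _ (by omega)
  have h12 : Nat.card B ≤ Nat.card BP * Nat.card BQ := by
    rw [← h9]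
    exact Nat.le_mul_of_pos_right _ Nat.card_pos
  have hpos1 : 0 < Nat.card BP := Nat.card_pos
  have hpos2 : 0 < Nat.card BQ := Nat.card_pos
  have h13 : 16 * (Nat.card BP * Nat.card BQ) ≤ Nat.card (P ⊔ Q : Subgroup G) := by
    rw [h8, ← hcP, ← hcQ]
    calc 16 * (Nat.card BP * Nat.card BQ) = (Nat.card BP * 4) * (Nat.card BQ * 4) := by ring
      _ ≤ _ := Nat.mul_le_mul (Nat.mul_le_mul_left _ h6) (Nat.mul_le_mul_left _ h7)
  have h14 : B.relIndex A * Nat.card B ≤ 2 ^ 4 * (Nat.card BP * Nat.card BQ) :=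
    Nat.mul_le_mul h5 h12
  have hpos3 : 0 < Nat.card BP * Nat.card BQ := Nat.mul_pos hpos1 hpos2
  omega

end Cfsg.Agent.H24.SRank
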