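import Mathlib
import Cfsg.Prelude.Def_OddOrderLocal
import Cfsg.Agent.H24_SRank
import Cfsg.Agent.H1_Frattini

set_option autoImplicit false

/-! Finite 2-groups of sectional rank at most two are metacyclic. -/

namespace Cfsg.Agent.H24.Blk

open Subgroup
open Cfsg.Agent.H24.SRank
open scoped commutatorElement

universe u

theorem srank_quotient {G : Type*} [Group G] {p k : ℕ} (hr : Cfsg.SectionalPRankLE p k G) (Z : Subgroup G) [Z.Normal] :
    Cfsg.SectionalPRankLE p k (G ⧸ Z) := by
  apply of_sec
  intro A B h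
  let π : G →* G ⧸ Z := QuotientGroup.mk' Z
  have hπ : Function.Surjective π := QuotientGroup.mk'_surjective Z
  have h1 : Sec p (A.comap π) (B.comap π) :=
    { le := comap_mono h.le
      nrm := fun a ha b hb => by
        rw [mem_comap] at ha hb ⊢
        rw [map_mul, map_mul, map_inv]
        exact h.nrm _ ha _ hb
      com := fun a ha b hb => by
        rw [mem_comap] at ha hb ⊢
        rw [map_mul, map_mul, map_mul, map_inv, map_inv]
        exact h.com _ ha _ hb
      pow := fun a ha => by
        rw [mem_comap] at ha ⊢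
        rw [map_pow]
        exact h.pow _ ha }
  have h2 := Sec.relIndex_le hr h1
  rwa [Subgroup.relIndex_comap, Subgroup.map_comap_eq_self_of_surjective hπ] at h2

variable {G : Type*} [Group G]

theorem metacyclic_of {x y : G} (hgen : closure {x, y} = ⊤) (hx : commutator G ≤ zpowers x) : Cfsg.IsMetacyclic G := by
  haveI hn : (zpowers x).Normal := by
    constructor
    intro n hn g
    have h1 : ⁅g, n⁆ ∈ commutator G := by
      rw [_root_.commutator_def]; exact commutator_mem_commutator (mem_top _) (mem_top _)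
    have h2 := mul_mem (hx h1) hn
    have e : ⁅g, n⁆ * n = g * n * g⁻¹ := by rw [commutatorElement_def]; group
    rwa [e] at h2
  refine ⟨zpowers x, hn, inferInstance, ?_⟩
  refine ⟨⟨QuotientGroup.mk y, ?_⟩⟩
  intro g
  obtain ⟨g, rfl⟩ := QuotientGroup.mk_surjective g
  have hg : g ∈ closure {x, y} := by rw [hgen]; trivial
  change (QuotientGroup.mk g : G ⧸ zpowers x) ∈ zpowers (QuotientGroup.mk y : G ⧸ zpowers x)
  induction hg using closure_induction with
  | mem g hg =>
    rcases hg with rfl | rfl
    · have : (QuotientGroup.mk g : G ⧸ zpowers g) = 1 := (QuotientGroup.eq_one_iff g).2 (mem_zpowers g)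
      rw [this]; exact one_mem _
    · exact mem_zpowers _
  | one => exact one_mem _
  | mul a b _ _ ha hb => exact mul_mem ha hb
  | inv a _ ha => exact inv_mem ha

theorem card_three [Finite G] {z u w : G} (hz : z ∈ center G) (hu : u ∈ center G) (hz2 : z * z = 1)
    (hu2 : u * u = 1) (hw2 : w * w = 1) (hz1 : z ≠ 1) (hu1 : u ≠ 1) (hw1 : w ≠ 1) (huz : u ≠ z) (hwz : w ≠ z)
    (huw : u * w ≠ 1) (huwz : u * w ≠ z) (hr : Cfsg.SectionalPRankLE 2 2 G) : False := by
  classical
  have cz : ∀ g, g * z = z * g := fun g => mem_center_iff.1 hz g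
  have cu : ∀ g, g * u = u * g := fun g => mem_center_iff.1 hu g
  -- elements of `⟨z, u⟩`
  have hmem : ∀ g ∈ closure {z, u}, g = 1 ∨ g = z ∨ g = u ∨ g = z * u := by
    intro g hg
    induction hg using closure_induction with
    | mem g hg =>
      rcases hg with rfl | rfl
      · exact Or.inr (Or.inl rfl)
      · exact Or.inr (Or.inr (Or.inl rfl))
    | one => exact Or.inl rfl
    | mul a b _ _ ha hb =>
      have e1 : z * (z * u) = u := by rw [← mul_assoc, hz2, one_mul]
      have e2 : u * (z * u) = z := by rw [← mul_assoc, cz u, mul_assoc, hu2, mul_one]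
      have e3 : z * u * z = u := by rw [mul_assoc, cz u, e1]
      have e4 : z * u * u = z := by rw [mul_assoc, hu2, mul_one]
      have e5 : z * u * (z * u) = 1 := by rw [← mul_assoc, e3, hu2]
      rcases ha with rfl | rfl | rfl | rfl <;> rcases hb with rfl | rfl | rfl | rfl <;>
        simp [hz2, hu2, e1, e2, e3, e4, e5, cz]
    | inv a _ ha =>
      have i1 : z⁻¹ = z := inv_eq_of_mul_eq_one_left hz2
      have i2 : u⁻¹ = u := inv_eq_of_mul_eq_one_left hu2
      rcases ha with rfl | rfl | rfl | rfl
      · exact Or.inl inv_one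
      · exact Or.inr (Or.inl i1)
      · exact Or.inr (Or.inr (Or.inl i2))
      · right; right; right
        rw [mul_inv_rev, i1, i2, cz]
  have hwn : w ∉ closure {z, u} := by
    intro h
    rcases hmem w h with h | h | h | h
    · exact hw1 h
    · exact hwz h
    · exact huw (by rw [h, hu2])
    · exact huwz (by rw [h, ← mul_assoc, cz u, mul_assoc, hu2, mul_one])
  have hun : u ∉ zpowers z := by
    intro h
    obtain ⟨n, hn⟩ := h
    have hn : z ^ n = u := hn
    rcases Int.even_or_odd' n with ⟨m, rfl | rfl⟩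
    · rw [zpow_mul, zpow_two, hz2, one_zpow] at hn
      exact hu1 hn.symm
    · rw [zpow_add, zpow_mul, zpow_two, hz2, one_zpow, one_mul, zpow_one] at hn
      exact huz hn.symm
  -- cardinalities
  have hdouble : ∀ H K : Subgroup G, H ≤ K → (∃ x ∈ K, x ∉ H) → 2 * Nat.card H ≤ Nat.card K := by
    intro H K hHK hx
    have h4 : H.relIndex K * Nat.card H = Nat.card K := by
      have := Subgroup.relIndex_mul_relIndex ⊥ H K bot_le hHK
      rwa [Subgroup.relIndex_bot_left, Subgroup.relIndex_bot_left, mul_comm] at this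
    have h5 : H.relIndex K ≠ 0 := by
      intro h; rw [h, zero_mul] at h4
      exact (Nat.card_pos (α := K)).ne h4
    have h6 : H.relIndex K ≠ 1 := by
      intro h
      rw [Subgroup.relIndex_eq_one] at h
      obtain ⟨x, hx, hx'⟩ := hx
      exact hx' (h hx)
    rw [← h4]
    exact Nat.mul_le_mul_right _ (by omega)
  have c1 : 2 ≤ Nat.card (zpowers z) := by
    have := hdouble ⊥ (zpowers z) bot_le ⟨z, mem_zpowers z, fun h => hz1 (mem_bot.1 h)⟩
    rwa [Subgroup.card_bot, mul_one] at this
  have c2 : 4 ≤ Nat.card (closure {z, u}) := by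
    have := hdouble (zpowers z) (closure {z, u}) (by rw [zpowers_le]; exact subset_closure (Or.inl rfl))
      ⟨u, subset_closure (Or.inr rfl), hun⟩
    omega
  have c3 : 8 ≤ Nat.card (closure {z, u, w}) := by
    have := hdouble (closure {z, u}) (closure {z, u, w}) (closure_mono (by
      intro x hx
      rcases hx with rfl | rfl
      · exact Or.inl rfl
      · exact Or.inr (Or.inl rfl)))
      ⟨w, subset_closure (Or.inr (Or.inr rfl)), hwn⟩
    omega
  have hcomm : ∀ x ∈ closure {z, u, w}, x * w = w * x := by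
    intro x hx
    induction hx using closure_induction with
    | mem x hx =>
      rcases hx with rfl | rfl | rfl
      · exact (cz w).symm
      · exact (cu w).symm
      · rfl
    | one => rw [one_mul, mul_one]
    | mul a b _ _ ha hb => rw [mul_assoc, hb, ← mul_assoc, ha, mul_assoc]
    | inv a _ ha => rw [inv_mul_eq_iff_eq_mul, ← mul_assoc, ha, mul_inv_cancel_right]
  have hcomm' : ∀ x ∈ closure {z, u, w}, ∀ y ∈ closure {z, u, w}, x * y = y * x := by
    intro x hx y hy
    induction hy using closure_induction with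
    | mem y hy =>
      rcases hy with rfl | rfl | rfl
      · exact cz x
      · exact cu x
      · exact hcomm x hx
    | one => rw [one_mul, mul_one]
    | mul a b _ _ ha hb => rw [← mul_assoc, ha, mul_assoc, hb, mul_assoc]
    | inv a _ ha => rw [eq_inv_mul_iff_mul_eq, ← mul_assoc, ← ha, mul_inv_cancel_right]
  have hsq : ∀ x ∈ closure {z, u, w}, x * x = 1 := by
    intro x hx
    induction hx using closure_induction with
    | mem x hx =>
      rcases hx with rfl | rfl | rfl
      · exact hz2
      · exact hu2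
      · exact hw2
    | one => rw [one_mul]
    | mul a b ha hb iha ihb =>
      rw [mul_assoc, ← mul_assoc b a b, hcomm' b hb a ha, mul_assoc a b b, ihb, mul_one, iha]
    | inv a _ ha => rw [← mul_inv_rev, ha, inv_one]
  have hS : Sec 2 (closure {z, u, w}) (⊥ : Subgroup G) :=
    { le := bot_le
      nrm := fun a _ b hb => by rw [mem_bot] at hb ⊢; rw [hb, mul_one, mul_inv_cancel]
      com := fun a ha b hb => by
        rw [mem_bot, hcomm' a ha b hb]; group
      pow := fun a ha => by rw [mem_bot, pow_two]; exact hsq a ha }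
  have h3 := Sec.relIndex_le hr hS
  rw [Subgroup.relIndex_bot_left] at h3
  omega

/-- two-generated nonabelian groups with commutator subgroup of order two -/
theorem case_two [Finite G] (h2 : IsPGroup 2 G) (hr : Cfsg.SectionalPRankLE 2 2 G) (z : G) (hz : z ∈ center G)
    (hz1 : z ≠ 1) (hz2 : z * z = 1) (hG' : ∀ g h : G, ⁅g, h⁆ = 1 ∨ ⁅g, h⁆ = z) (hab : ∃ g h : G, g * h ≠ h * g)
    (hgen : ∃ a c : G, closure {a, c} = ⊤) : Cfsg.IsMetacyclic G := by
  classical
  by_contra hnm
  have cz : ∀ g, g * z = z * g := fun g => mem_center_iff.1 hz g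
  have hcomle : ∀ x : G, z ∈ zpowers x → commutator G ≤ zpowers x := by
    intro x hx
    rw [_root_.commutator_def, Subgroup.commutator_le]
    intro g _ h _
    rcases hG' g h with h1 | h1
    · rw [h1]; exact one_mem _
    · rw [h1]; exact hx
  have hA : ∀ x y : G, closure {x, y} = ⊤ → z ∉ zpowers x := fun x y hxy hzx => hnm (metacyclic_of hxy (hcomle x hzx))
  -- generating pairs do not commute
  have hpair : ∀ x y : G, closure {x, y} = ⊤ → x * y ≠ y * x := by
    intro x y hxy hcomm
    obtain ⟨g, h, hgh⟩ := hab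
    apply hgh
    have h1 : ∀ g : G, g * x = x * g := by
      intro g
      have hg : g ∈ closure {x, y} := by rw [hxy]; trivial
      induction hg using closure_induction with
      | mem g hg =>
        rcases hg with rfl | rfl
        · rfl
        · exact hcomm.symm
      | one => rw [one_mul, mul_one]
      | mul a b _ _ ha hb => rw [mul_assoc, hb, ← mul_assoc, ha, mul_assoc]
      | inv a _ ha => rw [inv_mul_eq_iff_eq_mul, ← mul_assoc, ha, mul_inv_cancel_right]
    have h2 : ∀ g : G, g * y = y * g := by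
      intro g
      have hg : g ∈ closure {x, y} := by rw [hxy]; trivial
      induction hg using closure_induction with
      | mem g hg =>
        rcases hg with rfl | rfl
        · exact hcomm
        · rfl
      | one => rw [one_mul, mul_one]
      | mul a b _ _ ha hb => rw [mul_assoc, hb, ← mul_assoc, ha, mul_assoc]
      | inv a _ ha => rw [inv_mul_eq_iff_eq_mul, ← mul_assoc, ha, mul_inv_cancel_right]
    have hh : h ∈ closure {x, y} := by rw [hxy]; trivial
    induction hh using closure_induction with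
    | mem h hh =>
      rcases hh with rfl | rfl
      · exact h1 g
      · exact h2 g
    | one => rw [one_mul, mul_one]
    | mul a b _ _ ha hb =>
      by_cases ha' : g * a = a * g
      · by_cases hb' : g * b = b * g
        · rw [← mul_assoc, ha', mul_assoc, hb', mul_assoc]
        · exact absurd (hb hb') hb'
      · exact absurd (ha ha') ha'
    | inv a _ ha =>
      by_cases ha' : g * a = a * g
      · rw [eq_inv_mul_iff_mul_eq, ← mul_assoc, ← ha', mul_inv_cancel_right]
      · exact absurd (ha ha') ha'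
  -- commutation up to `z`
  have hsw : ∀ g h : G, g * h = h * g ∨ g * h = z * (h * g) := by
    intro g h
    have e : g * h = ⁅g, h⁆ * (h * g) := by rw [commutatorElement_def]; group
    rcases hG' g h with h1 | h1
    · left; rw [e, h1, one_mul]
    · right; rw [e, h1]
  have hsqc : ∀ g : G, g * g ∈ center G := by
    intro g
    rw [mem_center_iff]
    intro h
    rcases hsw h g with h1 | h1
    · rw [← mul_assoc, h1, mul_assoc, h1, mul_assoc]
    · calc h * (g * g) = (h * g) * g := by rw [mul_assoc]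
        _ = z * (g * h) * g := by rw [h1]
        _ = z * (g * (h * g)) := by simp only [mul_assoc]
        _ = z * (g * (z * (g * h))) := by rw [h1]
        _ = z * ((g * z) * (g * h)) := by simp only [mul_assoc]
        _ = (z * z) * (g * (g * h)) := by rw [cz]; simp only [mul_assoc]
        _ = g * g * h := by rw [hz2, one_mul, mul_assoc]
  have hprodsq : ∀ g h : G, (g * h) * (g * h) = (g * g) * (h * h) ∨ (g * h) * (g * h) = z * ((g * g) * (h * h)) := by
    intro g h
    rcases hsw h g with h1 | h1
    · left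
      calc (g * h) * (g * h) = g * (h * g) * h := by simp only [mul_assoc]
        _ = (g * g) * (h * h) := by rw [h1]; simp only [mul_assoc]
    · right
      calc (g * h) * (g * h) = g * (h * g) * h := by simp only [mul_assoc]
        _ = g * (z * (g * h)) * h := by rw [h1]
        _ = (g * z) * (g * h) * h := by simp only [mul_assoc]
        _ = z * ((g * g) * (h * h)) := by rw [cz]; simp only [mul_assoc]
  -- `(g h)^(2^k)` for `k ≥ 1`
  have hpow : ∀ (k : ℕ) (g h : G), (g * h) ^ (2 ^ (k + 1)) = g ^ (2 ^ (k + 1)) * h ^ (2 ^ (k + 1)) ∨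
      (g * h) ^ (2 ^ (k + 1)) = z * (g ^ (2 ^ (k + 1)) * h ^ (2 ^ (k + 1))) := by
    intro k g h
    have hcm : ∀ x : G, ∀ y : G, Commute (x * x) y := fun x y => (mem_center_iff.1 (hsqc x) y).symm
    have e : ∀ x : G, x ^ (2 ^ (k + 1)) = (x * x) ^ (2 ^ k) := by
      intro x
      rw [pow_succ', pow_mul, pow_two]
    rw [e, e, e]
    rcases hprodsq g h with h1 | h1
    · left
      rw [h1, (hcm g _).mul_pow]
    · have hzz : z ^ (2 ^ k) = 1 ∨ z ^ (2 ^ k) = z := by
        rcases k with _ | k
        · right; rw [pow_zero, pow_one]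
        · left; rw [pow_succ', pow_mul, pow_two, hz2, one_pow]
      have h3 : (g * h * (g * h)) ^ (2 ^ k) = z ^ (2 ^ k) * ((g * g) ^ (2 ^ k) * (h * h) ^ (2 ^ k)) := by
        have hcz : Commute z (g * g * (h * h)) := (cz _).symm
        rw [h1, hcz.mul_pow, (hcm g _).mul_pow]
      rw [h3]
      rcases hzz with h4 | h4
      · left; rw [h4, one_mul]
      · right; rw [h4]
  -- a minimal pair
  have hex : ∃ n : ℕ, ∃ a c : G, closure {a, c} = ⊤ ∧ orderOf a + orderOf c = n := by
    obtain ⟨a, c, h⟩ := hgen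
    exact ⟨_, a, c, h, rfl⟩
  obtain ⟨a, c, hac, hmin0⟩ := Nat.find_spec hex
  have hmin : ∀ a' c' : G, closure {a', c'} = ⊤ → orderOf a + orderOf c ≤ orderOf a' + orderOf c' := by
    intro a' c' h
    rw [hmin0]
    exact Nat.find_min' hex ⟨a', c', h, rfl⟩
  clear hmin0
  -- symmetric form
  have main : ∀ a c : G, closure {a, c} = ⊤ → (∀ a' c' : G, closure {a', c'} = ⊤ → orderOf a + orderOf c ≤ orderOf a' + orderOf c') →
      orderOf c ≤ orderOf a → False := by
    intro a c hac hmin hle
    have hca : closure {c, a} = ⊤ := by rw [Set.pair_comm]; exact hac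
    obtain ⟨r, hr'⟩ := (IsPGroup.iff_orderOf.1 h2) a
    obtain ⟨s, hs'⟩ := (IsPGroup.iff_orderOf.1 h2) c
    have hsr : s ≤ r := by
      rw [hr', hs'] at hle
      exact (Nat.pow_le_pow_iff_right (by norm_num)).1 hle
    have hs1 : s ≠ 0 := by
      rintro rfl
      rw [pow_zero, orderOf_eq_one_iff] at hs'
      apply hpair a c hac
      rw [hs', mul_one, one_mul]
    obtain ⟨s, rfl⟩ := Nat.exists_eq_succ_of_ne_zero hs1
    have hr1 : r ≠ 0 := by omega
    obtain ⟨r, rfl⟩ := Nat.exists_eq_succ_of_ne_zero hr1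
    have hsr : s ≤ r := by omega
    have hu1 : a ^ (2 ^ r) ≠ 1 := by
      intro h
      have := orderOf_dvd_of_pow_eq_one h
      rw [hr'] at this
      have := (Nat.pow_dvd_pow_iff_le_right (by norm_num : 1 < 2)).1 this
      omega
    have hw1 : c ^ (2 ^ s) ≠ 1 := by
      intro h
      have := orderOf_dvd_of_pow_eq_one h
      rw [hs'] at this
      have := (Nat.pow_dvd_pow_iff_le_right (by norm_num : 1 < 2)).1 this
      omega
    have hu2 : a ^ (2 ^ r) * a ^ (2 ^ r) = 1 := by
      rw [← pow_add, ← two_mul, ← pow_succ', ← Nat.succ_eq_add_one, ← hr', pow_orderOf_eq_one]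
    have hw2 : c ^ (2 ^ s) * c ^ (2 ^ s) = 1 := by
      rw [← pow_add, ← two_mul, ← pow_succ', ← Nat.succ_eq_add_one, ← hs', pow_orderOf_eq_one]
    -- new element
    obtain ⟨x, hx⟩ : ∃ x, x = a ^ (2 ^ (r - s)) * c := ⟨_, rfl⟩
    have hax : closure {a, x} = ⊤ := by
      rw [eq_top_iff, ← hac, closure_le]
      have m1 : a ∈ closure {a, x} := subset_closure (Or.inl rfl)
      have m2 : x ∈ closure {a, x} := subset_closure (Or.inr rfl)
      rintro y (rfl | rfl)
      · exact m1
      · have := mul_mem (inv_mem (pow_mem m1 (2 ^ (r - s)))) m2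
        have e9 : (a ^ (2 ^ (r - s)))⁻¹ * x = y := by rw [hx, inv_mul_cancel_left]
        rwa [e9] at this
    have hxa : closure {x, a} = ⊤ := by rw [Set.pair_comm]; exact hax
    have hxs : x ^ (2 ^ s) ≠ 1 := by
      intro h
      have h3 := orderOf_dvd_of_pow_eq_one h
      have h4 := Nat.le_of_dvd (by positivity) h3
      have h5 := hmin a x hax
      rw [hs', pow_succ] at h5
      have h6 : 0 < 2 ^ s := by positivity
      omega
    have hxz : x ^ (2 ^ s) ≠ z := fun h => hA x a hxa (by rw [← h]; exact pow_mem (mem_zpowers x) _)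
    have hea : (a ^ (2 ^ (r - s))) ^ (2 ^ s) = a ^ (2 ^ r) := by
      rw [← pow_mul, ← pow_add, Nat.sub_add_cancel hsr]
    have key : x ^ (2 ^ s) = a ^ (2 ^ r) * c ^ (2 ^ s) ∨ x ^ (2 ^ s) = z * (a ^ (2 ^ r) * c ^ (2 ^ s)) := by
      rcases s with _ | s
      · left
        rw [pow_zero, pow_one, pow_one, hx, Nat.sub_zero]
      · have := hpow s (a ^ (2 ^ (r - (s + 1)))) c
        rw [hea, ← hx] at this
        exact this
    have huw : a ^ (2 ^ r) * c ^ (2 ^ s) ≠ 1 := by
      intro h
      rcases key with k | k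
      · exact hxs (by rw [k, h])
      · exact hxz (by rw [k, h, mul_one])
    have huwz : a ^ (2 ^ r) * c ^ (2 ^ s) ≠ z := by
      intro h
      rcases key with k | k
      · exact hxz (by rw [k, h])
      · exact hxs (by rw [k, h, hz2])
    have huz : a ^ (2 ^ r) ≠ z := fun h => hA a c hac (by rw [← h]; exact pow_mem (mem_zpowers a) _)
    have hwz : c ^ (2 ^ s) ≠ z := fun h => hA c a hca (by rw [← h]; exact pow_mem (mem_zpowers c) _)
    rcases r with _ | r
    · -- `a² = c² = 1`
      have hs0 : s = 0 := by omega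
      subst hs0
      rw [pow_zero, pow_one] at hu2 hw2
      have hac2 : closure {a * c, c} = ⊤ := by
        rw [eq_top_iff, ← hac, closure_le]
        have m1 : a * c ∈ closure {a * c, c} := subset_closure (Or.inl rfl)
        have m2 : c ∈ closure {a * c, c} := subset_closure (Or.inr rfl)
        rintro y (rfl | rfl)
        · have := mul_mem m1 (inv_mem m2)
          rwa [mul_inv_cancel_right] at this
        · exact m2
      have hne := hpair a c hac
      rcases hprodsq a c with h | h
      · apply hne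
        rw [hu2, hw2, mul_one] at h
        have e1 : (a * c)⁻¹ = a * c := inv_eq_of_mul_eq_one_left h
        have e2 : a⁻¹ = a := inv_eq_of_mul_eq_one_left hu2
        have e3 : c⁻¹ = c := inv_eq_of_mul_eq_one_left hw2
        rw [← e1, mul_inv_rev, e2, e3]
      · rw [hu2, hw2, mul_one, mul_one] at h
        exact hA (a * c) c hac2 (by rw [← h]; exact mul_mem (mem_zpowers _) (mem_zpowers _))
    · have huc : a ^ (2 ^ (r + 1)) ∈ center G := by
        have : a ^ (2 ^ (r + 1)) = (a ^ (2 ^ r)) * (a ^ (2 ^ r)) := by rw [← pow_add, pow_succ]; congr 1; ring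
        rw [this]; exact hsqc _
      exact card_three hz huc hz2 hu2 hw2 hz1 hu1 hw1 huz hwz huw huwz hr
  rcases le_total (orderOf c) (orderOf a) with h | h
  · exact main a c hac hmin h
  · exact main c a (by rw [Set.pair_comm]; exact hac) (fun a' c' h' => by
      have := hmin a' c' h'
      omega) h

theorem two_gen [Finite G] (h2 : IsPGroup 2 G) (hr : Cfsg.SectionalPRankLE 2 2 G) : ∃ a c : G, closure {a, c} = ⊤ := by
  classical
  haveI : Fact (Nat.Prime 2) := ⟨Nat.prime_two⟩
  have hS : Sec 2 (⊤ : Subgroup G) (frattini G) :=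
    { le := le_top
      nrm := fun a _ b hb => Subgroup.Normal.conj_mem inferInstance b hb a
      com := fun a _ b _ => by
        apply Cfsg.Agent.H2.PGroup.commutator_le_frattini h2
        rw [_root_.commutator_def]
        exact commutator_mem_commutator (mem_top _) (mem_top _)
      pow := fun a _ => Cfsg.Agent.H2.PGroup.pow_mem_frattini h2 a }
  have h3 := Sec.relIndex_le hr hS
  rw [Subgroup.relIndex_top_right] at h3
  obtain ⟨n, hn⟩ := IsPGroup.iff_card.1 (h2.to_quotient (frattini G))
  have hn' : (frattini G).index = 2 ^ n := hn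
  rw [hn'] at h3
  have hn2 : n ≤ 2 := (Nat.pow_le_pow_iff_right (by norm_num)).1 h3
  haveI := Fintype.ofFinite G
  obtain ⟨T, -, hTc, hT⟩ := (Cfsg.Agent.H1.Frattini.burnside_basis 2 n h2 hn').1 Finset.univ (by
    rw [Finset.coe_univ]; exact Subgroup.closure_univ)
  interval_cases n
  · rw [Finset.card_eq_zero] at hTc
    rw [hTc, Finset.coe_empty, Subgroup.closure_empty] at hT
    exact ⟨1, 1, by rw [eq_top_iff, ← hT]; exact bot_le⟩
  · obtain ⟨a, ha⟩ := Finset.card_eq_one.1 hTc
    rw [ha, Finset.coe_singleton] at hT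
    exact ⟨a, a, by rw [Set.pair_eq_singleton, hT]⟩
  · obtain ⟨a, c, _, hac⟩ := Finset.card_eq_two.1 hTc
    rw [hac, Finset.coe_insert, Finset.coe_singleton] at hT
    exact ⟨a, c, hT⟩

theorem main (n : ℕ) : ∀ (G : Type u) [Group G] [Finite G], Nat.card G = n → IsPGroup 2 G → Cfsg.SectionalPRankLE 2 2 G →
    Cfsg.IsMetacyclic G := by
  induction n using Nat.strong_induction_on with
  | _ n ih =>
  intro G _ _ hn h2 hr
  classical
  haveI : Fact (Nat.Prime 2) := ⟨Nat.prime_two⟩
  obtain ⟨a₀, c₀, hgen⟩ := two_gen h2 hr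
  by_cases hab : commutator G = ⊥
  · exact metacyclic_of hgen (by rw [hab]; exact bot_le)
  -- a central involution in the commutator subgroup
  obtain ⟨z, hzG', hzc, hz1, hz2⟩ : ∃ z ∈ commutator G, z ∈ center G ∧ z ≠ 1 ∧ z * z = 1 := by
    have h1 := Cfsg.Agent.H2.PGroup.inf_center_ne_bot h2 hab
    have h3 : IsPGroup 2 (commutator G ⊓ center G : Subgroup G) := h2.to_subgroup _
    haveI : Nontrivial (commutator G ⊓ center G : Subgroup G) := (Subgroup.nontrivial_iff_ne_bot _).2 h1
    obtain ⟨m, hm0, hm⟩ := h3.nontrivial_iff_card.1 inferInstance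
    obtain ⟨z, hz⟩ := exists_prime_orderOf_dvd_card' 2 (G := (commutator G ⊓ center G : Subgroup G)) (by
      rw [hm]; exact dvd_pow_self _ (by omega))
    refine ⟨z, z.2.1, z.2.2, ?_, ?_⟩
    · intro h
      have : z = 1 := Subtype.ext h
      rw [this, orderOf_one] at hz
      norm_num at hz
    · have := pow_orderOf_eq_one z
      rw [hz, pow_two] at this
      exact congrArg Subtype.val this
  have cz : ∀ g, g * z = z * g := fun g => mem_center_iff.1 hzc g
  haveI hZn : (zpowers z).Normal := by
    constructor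
    rintro _ ⟨k, rfl⟩ g
    refine ⟨k, ?_⟩
    have h0 : Commute g z := cz g
    have : Commute g (z ^ k) := h0.zpow_right k
    change z ^ k = g * z ^ k * g⁻¹
    rw [this.eq, mul_inv_cancel_right]
  have hzm : ∀ x ∈ zpowers z, x = 1 ∨ x = z := by
    rintro _ ⟨k, rfl⟩
    rcases Int.even_or_odd' k with ⟨m, rfl | rfl⟩
    · left; change z ^ (2 * m) = 1; rw [zpow_mul, zpow_two, hz2, one_zpow]
    · right; change z ^ (2 * m + 1) = z; rw [zpow_add, zpow_mul, zpow_two, hz2, one_zpow, one_mul, zpow_one]
  have hlt : Nat.card (G ⧸ zpowers z) < n := by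
    rw [← hn]
    have h1 := (zpowers z).card_mul_index
    have h3 : 1 < Nat.card (zpowers z) := by
      have : Nontrivial (zpowers z) := (Subgroup.nontrivial_iff_ne_bot _).2 (fun h => hz1 (by
        have := mem_zpowers z
        rw [h, mem_bot] at this
        exact this))
      exact Finite.one_lt_card
    have h4 : 0 < (zpowers z).index := Nat.pos_of_ne_zero Subgroup.index_ne_zero_of_finite
    change (zpowers z).index < Nat.card G
    nlinarith
  obtain ⟨N', hN'n, hN'c, hN'q⟩ := ih _ hlt (G ⧸ zpowers z) rfl (h2.to_quotient _) (srank_quotient hr _)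
  let π : G →* G ⧸ zpowers z := QuotientGroup.mk' (zpowers z)
  have hπ : Function.Surjective π := QuotientGroup.mk'_surjective _
  have hker : ∀ x, π x = 1 ↔ x ∈ zpowers z := fun x => QuotientGroup.eq_one_iff x
  obtain ⟨c', hc'⟩ := hN'c.exists_generator
  obtain ⟨c, hc⟩ := hπ (c' : G ⧸ zpowers z)
  obtain ⟨a', ha'⟩ := hN'q.exists_generator
  obtain ⟨a'', ha''⟩ := QuotientGroup.mk_surjective a'
  obtain ⟨a, ha⟩ := hπ a''
  -- elements of `N`
  have hN : ∀ x, π x ∈ N' → ∃ (k : ℤ) (y : G), y ∈ zpowers z ∧ x = c ^ k * y := by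
    intro x hx
    obtain ⟨k, hk⟩ := hc' ⟨π x, hx⟩
    have hk' : (c' : G ⧸ zpowers z) ^ k = π x := congrArg Subtype.val hk
    refine ⟨k, (c ^ k)⁻¹ * x, ?_, by group⟩
    rw [← hker, map_mul, map_inv, map_zpow, hc, hk', inv_mul_cancel]
  have hG : ∀ g : G, ∃ (j k : ℤ) (y : G), y ∈ zpowers z ∧ g = a ^ j * (c ^ k * y) := by
    intro g
    obtain ⟨j, hj⟩ := ha' (QuotientGroup.mk (π g))
    have h1 : ((a'' : G ⧸ zpowers z) ^ j)⁻¹ * π g ∈ N' := by
      rw [← QuotientGroup.eq, QuotientGroup.mk_zpow, ha'']
      exact hj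
    rw [← ha, ← map_zpow, ← map_inv, ← map_mul] at h1
    obtain ⟨k, y, hy, h3⟩ := hN _ h1
    exact ⟨j, k, y, hy, by rw [← h3]; group⟩
  by_cases hzc' : z ∈ zpowers c
  · -- `N` is cyclic
    have hNe : N'.comap π = zpowers c := by
      apply le_antisymm
      · intro x hx
        obtain ⟨k, y, hy, rfl⟩ := hN x hx
        refine mul_mem (zpow_mem (mem_zpowers c) k) ?_
        exact (zpowers_le.2 hzc') hy
      · rw [zpowers_le, mem_comap, hc]
        exact c'.2
    refine ⟨N'.comap π, inferInstance, by rw [hNe]; infer_instance, ?_⟩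
    have e : (G ⧸ N'.comap π) ≃* ((G ⧸ zpowers z) ⧸ N') := by
      refine QuotientGroup.liftEquiv _ (φ := (QuotientGroup.mk' N').comp π) ?_ ?_
      · exact (QuotientGroup.mk'_surjective N').comp hπ
      · ext x
        rw [MonoidHom.mem_ker, MonoidHom.comp_apply, mem_comap]
        exact (QuotientGroup.eq_one_iff (π x)).symm
    exact isCyclic_of_surjective e.symm e.symm.surjective
  -- the commutator `d = [c, a]` has order two
  obtain ⟨d, hd⟩ : ∃ d, d = c * a * c⁻¹ * a⁻¹ := ⟨_, rfl⟩
  have hdN : ∃ (k : ℤ) (y : G), y ∈ zpowers z ∧ d = c ^ k * y := by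
    apply hN
    have h1 : π c ∈ N' := by rw [hc]; exact c'.2
    have h3 : π a * (π c)⁻¹ * (π a)⁻¹ ∈ N' := hN'n.conj_mem _ (inv_mem h1) _
    have e : π d = π c * (π a * (π c)⁻¹ * (π a)⁻¹) := by
      rw [hd, map_mul, map_mul, map_mul, map_inv, map_inv]; simp only [mul_assoc]
    rw [e]
    exact mul_mem h1 h3
  obtain ⟨m, y, hy, hdm⟩ := hdN
  have cy : ∀ y ∈ zpowers z, ∀ g, Commute g y := by
    rintro _ ⟨k, rfl⟩ g
    have h0 : Commute g z := cz g
    exact h0.zpow_right k
  have hcd : Commute c d := by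
    rw [hdm]
    exact ((Commute.refl c).zpow_right m).mul_right (cy y hy c)
  have haca : a * c * a⁻¹ = d⁻¹ * c := by rw [hd]; group
  have hada : a * d * a⁻¹ = d ^ (1 - m) := by
    calc a * d * a⁻¹ = (a * c * a⁻¹) ^ m * (a * y * a⁻¹) := by
          nth_rewrite 1 [hdm]
          rw [conj_zpow]; group
      _ = (d⁻¹ * c) ^ m * y := by rw [haca, (cy y hy a).eq, mul_inv_cancel_right]
      _ = (d⁻¹) ^ m * (c ^ m * y) := by
          have : Commute d⁻¹ c := hcd.symm.inv_left
          rw [this.mul_zpow, mul_assoc]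
      _ = (d⁻¹) ^ m * d := by rw [← hdm]
      _ = d ^ (1 - m) := by rw [inv_zpow', zpow_sub, zpow_one, zpow_neg]; exact ((Commute.refl d).zpow_left (m)).inv_left.eq
  have hDn : (zpowers d).Normal := by
    have ha1 : ∀ x ∈ zpowers d, a * x * a⁻¹ ∈ zpowers d := by
      rintro _ ⟨k, rfl⟩
      change a * d ^ k * a⁻¹ ∈ zpowers d
      rw [← conj_zpow, hada]
      exact zpow_mem (zpow_mem (mem_zpowers d) _) _
    have ha2 : ∀ n : ℕ, ∀ x ∈ zpowers d, a ^ n * x * (a ^ n)⁻¹ ∈ zpowers d := by
      intro n
      induction n with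
      | zero => intro x hx; simpa using hx
      | succ n ih =>
        intro x hx
        have := ha1 _ (ih x hx)
        have e : a * (a ^ n * x * (a ^ n)⁻¹) * a⁻¹ = a ^ (n + 1) * x * (a ^ (n + 1))⁻¹ := by
          rw [pow_succ', mul_inv_rev]; group
        rwa [e] at this
    constructor
    intro x hx g
    obtain ⟨j, k, y', hy', rfl⟩ := hG g
    have h1 : Commute (c ^ k * y') x := by
      obtain ⟨i, rfl⟩ := hx
      change Commute (c ^ k * y') (d ^ i)
      exact (hcd.zpow_zpow k i).mul_left (cy y' hy' (d ^ i)).symm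
    have h3 : a ^ j * (c ^ k * y') * x * (a ^ j * (c ^ k * y'))⁻¹ = a ^ j * x * (a ^ j)⁻¹ := by
      calc a ^ j * (c ^ k * y') * x * (a ^ j * (c ^ k * y'))⁻¹ = a ^ j * ((c ^ k * y') * x) * (c ^ k * y')⁻¹ * (a ^ j)⁻¹ := by
            rw [mul_inv_rev]; simp only [mul_assoc]
        _ = a ^ j * (x * (c ^ k * y')) * (c ^ k * y')⁻¹ * (a ^ j)⁻¹ := by rw [h1.eq]
        _ = a ^ j * x * (a ^ j)⁻¹ := by group
    rw [h3]
    have h4 : ∃ n : ℕ, a ^ j = a ^ n := by
      have : a ^ j ∈ Submonoid.powers a := by
        rw [mem_powers_iff_mem_zpowers]; exact ⟨j, rfl⟩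
      obtain ⟨n, hn⟩ := this
      exact ⟨n, hn.symm⟩
    obtain ⟨n, hn⟩ := h4
    rw [hn]
    exact ha2 n x hx
  have hG'D : commutator G ≤ zpowers d := by
    haveI := hDn
    let θ : G →* G ⧸ zpowers d := QuotientGroup.mk' (zpowers d)
    have h1 : Commute (θ a) (θ c) := by
      have h3' : θ d = 1 := (QuotientGroup.eq_one_iff d).2 (mem_zpowers d)
      have h3'' : θ d = θ (c * a * c⁻¹ * a⁻¹) := congrArg θ hd
      have h3 : θ c * θ a * (θ c)⁻¹ * (θ a)⁻¹ = 1 := by
        rw [← h3', h3'', map_mul, map_mul, map_mul, map_inv, map_inv]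
      have : θ c * θ a = θ a * θ c := by
        rw [mul_inv_eq_one, mul_inv_eq_iff_eq_mul] at h3
        exact h3
      exact this.symm
    rw [_root_.commutator_def, Subgroup.commutator_le]
    intro g _ h _
    have h3 : Commute (θ g) (θ h) := by
      obtain ⟨j, k, y₁, hy₁, rfl⟩ := hG g
      obtain ⟨j', k', y₂, hy₂, rfl⟩ := hG h
      have c1 : ∀ g : G, Commute (θ g) (θ y₂) := fun g => (cy y₂ hy₂ g).map θ
      have c2 : ∀ g : G, Commute (θ y₁) (θ g) := fun g => ((cy y₁ hy₁ g).map θ).symm
      rw [map_mul, map_mul, map_mul, map_mul, map_zpow, map_zpow, map_zpow, map_zpow]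
      refine Commute.mul_left ?_ (Commute.mul_left ?_ ?_)
      · refine Commute.mul_right ((Commute.refl _).zpow_zpow _ _) (Commute.mul_right (h1.zpow_zpow _ _) ?_)
        rw [← map_zpow]; exact c1 _
      · refine Commute.mul_right (h1.symm.zpow_zpow _ _) (Commute.mul_right ((Commute.refl _).zpow_zpow _ _) ?_)
        rw [← map_zpow]; exact c1 _
      · refine Commute.mul_right ?_ (Commute.mul_right ?_ ?_)
        · rw [← map_zpow]; exact c2 _
        · rw [← map_zpow]; exact c2 _
        · exact c2 _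
    have h4 : θ ⁅g, h⁆ = 1 := by
      rw [commutatorElement_def, map_mul, map_mul, map_mul, map_inv, map_inv, h3.eq]; group
    exact (QuotientGroup.eq_one_iff _).1 h4
  -- `d = z`
  obtain ⟨k, hk⟩ := hG'D hzG'
  have hk : d ^ k = z := hk
  have hdz : d = z := by
    rcases Int.even_or_odd' k with ⟨j, rfl | rfl⟩
    · exfalso
      apply hzc'
      rw [← hk, hdm]
      rcases hzm y hy with rfl | rfl
      · rw [mul_one]; exact zpow_mem (zpow_mem (mem_zpowers c) _) _
      · have h0 : Commute (c ^ m) y := cz (c ^ m)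
        rw [h0.mul_zpow, zpow_mul y, zpow_two, hz2, one_zpow, mul_one]
        exact zpow_mem (zpow_mem (mem_zpowers c) _) _
    · -- `d² = 1`
      have h1 : (d * d) ^ (2 * j + 1) = 1 := by
        have h0 : Commute d d := Commute.refl d
        rw [h0.mul_zpow, hk, hz2]
      have h3 : d * d = 1 := by
        obtain ⟨t, ht⟩ := (IsPGroup.iff_orderOf.1 h2) (d * d)
        have h4 := orderOf_dvd_iff_zpow_eq_one.2 h1
        rw [ht] at h4
        rcases t with _ | t
        · rw [pow_zero] at ht
          exact orderOf_eq_one_iff.1 ht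
        · exfalso
          have h5 : (2 : ℤ) ∣ 2 * j + 1 := (by
            refine Dvd.dvd.trans ?_ h4
            push_cast
            exact dvd_pow_self 2 (Nat.succ_ne_zero t))
          omega
      rw [zpow_add, zpow_mul, zpow_two, h3, one_zpow, one_mul, zpow_one] at hk
      exact hk
  have hG'z : ∀ g h : G, ⁅g, h⁆ = 1 ∨ ⁅g, h⁆ = z := by
    intro g h
    apply hzm
    rw [← hdz]
    apply hG'D
    rw [_root_.commutator_def]
    exact commutator_mem_commutator (mem_top _) (mem_top _)
  refine case_two h2 hr z hzc hz1 hz2 hG'z ⟨c, a, ?_⟩ ⟨a₀, c₀, hgen⟩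
  intro h
  apply hz1
  rw [← hdz, hd, h]; group

end Cfsg.Agent.H24.Blk
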