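import Mathlib
import Cfsg.Agent.H1_Frattini
import Cfsg.Agent.H2_PGroup
import Cfsg.Agent.H19_Diag
import Cfsg.Agent.H24_FratAut

set_option autoImplicit false

/-! Commuting involutory automorphisms of a `p`-group, `p` odd: common eigenbasis of `P/Φ(P)`. -/

namespace Cfsg.Agent.H24.Broad

open Subgroup Module
open scoped commutatorElement

variable {P : Type*} [Group P] [Finite P]

/-- lifting fixed points of an involutory automorphism -/
theorem lift_fixed (hodd : Odd (Nat.card P)) (Φ : Subgroup P) (T : MulAut P) (hT2 : T * T = 1) (x : P)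
    (hx : x⁻¹ * T x ∈ Φ) : ∃ y, T y = y ∧ x⁻¹ * y ∈ Φ := by
  obtain ⟨k, hk⟩ := hodd
  set z := x⁻¹ * T x with hz
  have hTT : ∀ y, T (T y) = y := fun y => by
    have := congrArg (fun f : MulAut P => f y) hT2
    exact this
  have hTz : T z = z⁻¹ := by
    rw [hz, map_mul, map_inv, hTT]; group
  have hzz : z ^ (k + 1) * z ^ (k + 1) = z := by
    rw [← pow_add]
    have e : k + 1 + (k + 1) = Nat.card P + 1 := by omega
    rw [e, pow_succ, pow_card_eq_one', one_mul]
  refine ⟨x * z ^ (k + 1), ?_, ?_⟩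
  · rw [map_mul, map_pow, hTz]
    have h1 : T x = x * z := by rw [hz]; group
    rw [h1, inv_pow, mul_assoc]
    congr 1
    rw [mul_inv_eq_iff_eq_mul, hzz]
  · rw [inv_mul_cancel_left]
    exact pow_mem hx _

/-- an involutory automorphism without fixed points inverts -/
theorem inv_of_fpf (hodd : Odd (Nat.card P)) (T : MulAut P) (hT2 : T * T = 1) (C : Subgroup P)
    (hC : ∀ x ∈ C, T x ∈ C) (hf : ∀ x ∈ C, T x = x → x = 1) (x : P) (hx : x ∈ C) : T x = x⁻¹ := by
  have hTT : ∀ y, T (T y) = y := fun y => by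
    have := congrArg (fun f : MulAut P => f y) hT2
    exact this
  -- every element of `C` has the form `x⁻¹ T x`
  have hinj : Function.Injective (fun y : C => (⟨(y : P)⁻¹ * T y, C.mul_mem (C.inv_mem y.2) (hC _ y.2)⟩ : C)) := by
    intro a b hab
    have h1 : (a : P)⁻¹ * T a = (b : P)⁻¹ * T b := congrArg Subtype.val hab
    have h2 : T ((b : P) * (a : P)⁻¹) = (b : P) * (a : P)⁻¹ := by
      rw [map_mul, map_inv]
      have e1 : T a = a * ((b : P)⁻¹ * T b) := by rw [← h1]; group
      rw [e1]; group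
    have h3 := hf _ (C.mul_mem b.2 (C.inv_mem a.2)) h2
    rw [mul_inv_eq_one] at h3
    exact Subtype.ext h3.symm
  obtain ⟨y, hy⟩ := (Finite.surjective_of_injective hinj) ⟨x, hx⟩
  have h1 : (y : P)⁻¹ * T y = x := congrArg Subtype.val hy
  rw [← h1, map_mul, map_inv, hTT]; group

theorem odd_card {p : ℕ} [hp : Fact p.Prime] (hp2 : p ≠ 2) (hP : IsPGroup p P) : Odd (Nat.card P) := by
  obtain ⟨n, hn⟩ := IsPGroup.iff_card.1 hP
  rw [hn]
  exact (hp.out.odd_of_ne_two hp2).pow

theorem data' {p : ℕ} [hp : Fact p.Prime] (hp2 : p ≠ 2) (hP : IsPGroup p P) (I : Subgroup (MulAut P))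
    (hc : ∀ a ∈ I, ∀ b ∈ I, a * b = b * a) (hsq : ∀ a ∈ I, a * a = 1)
    {V : Type*} [AddCommGroup V] [Module (ZMod p) V] [Finite V] (π : P → V) (hπ : Function.Surjective π)
    (hadd : ∀ x y, π (x * y) = π x + π y) (h0 : ∀ x, π x = 0 ↔ x ∈ frattini P)
    (f : I → Module.End (ZMod p) V) (hf : ∀ (a : I) (y : P), f a (π y) = π ((a : MulAut P) y)) :
    ∃ (n : ℕ) (x : Fin n → P) (s : Fin n → I → Prop), Nat.card V = p ^ n ∧
      (∀ i (a : I), s i a → (x i)⁻¹ * (a : MulAut P) (x i) ∈ frattini P) ∧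
      (∀ i (a : I), ¬ s i a → (x i) * (a : MulAut P) (x i) ∈ frattini P) ∧
      (∀ i, x i ∉ frattini P) ∧
      (∀ i j (g : P), x i ∈ zpowers g ⊔ frattini P → x j ∈ zpowers g ⊔ frattini P → i = j) ∧
      closure (Set.range x) = ⊤ ∧
      (∀ i (a b : I), s i (a * b) ↔ (s i a ↔ s i b)) ∧
      (∀ a : I, (∀ i, s i a) → a = 1) := by
  classical
  have hodd := odd_card hp2 hP
  have h1π : π 1 = 0 := (h0 1).2 (one_mem _)
  have hinvπ : ∀ x, π x⁻¹ = - π x := by
    intro x
    rw [eq_neg_iff_add_eq_zero, ← hadd, inv_mul_cancel, h1π]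
  have hpow : ∀ x (n : ℕ), π (x ^ n) = n • π x := by
    intro x n
    induction n with
    | zero => rw [pow_zero, h1π, zero_smul]
    | succ n ih => rw [pow_succ, hadd, ih, succ_nsmul]
  have hzpow : ∀ x (n : ℤ), π (x ^ n) = n • π x := by
    intro x n
    induction n using Int.negInduction with
    | nat n => rw [zpow_natCast, hpow, natCast_zsmul]
    | neg _ n => rw [zpow_neg, hinvπ, zpow_natCast, hpow, neg_smul, natCast_zsmul]
  have heq : ∀ x y, π x = π y ↔ x⁻¹ * y ∈ frattini P := by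
    intro x y
    rw [← h0, hadd, hinvπ, neg_add_eq_zero]
  haveI : FiniteDimensional (ZMod p) V := inferInstance
  have hff : ∀ (a b : I), f (a * b) = f a * f b := by
    intro a b
    ext v
    obtain ⟨v, rfl⟩ := hπ v
    rw [Module.End.mul_apply, hf, hf, hf]
    rfl
  have hf1 : f 1 = 1 := by
    ext v
    obtain ⟨v, rfl⟩ := hπ v
    rw [hf]
    rfl
  have hcI : ∀ a b : I, a * b = b * a := fun a b => Subtype.ext (hc a a.2 b b.2)
  have hsI : ∀ a : I, a * a = 1 := fun a => Subtype.ext (hsq a a.2)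
  have h2 : (2 : ZMod p) ≠ 0 := by
    intro h
    have : ((2 : ℕ) : ZMod p) = 0 := by exact_mod_cast h
    rw [ZMod.natCast_eq_zero_iff] at this
    exact hp2 ((Nat.prime_dvd_prime_iff_eq hp.out Nat.prime_two).1 this)
  obtain ⟨b, χ, hχ⟩ := H19.Diag.exists_diag (A := I) h2 f
    (fun a b => by rw [Commute, SemiconjBy, ← hff, hcI, hff]) (fun a => by rw [← hff, hsI, hf1])
  have hχ2 := fun i a => H19.Diag.sq_one (fun a => by rw [← hff, hsI, hf1]) hχ i a
  have hne : (1 : ZMod p) ≠ -1 := by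
    intro h
    apply h2
    have : (1 : ZMod p) + 1 = 0 := by nth_rewrite 2 [h]; ring
    rw [← this]; norm_num
  choose x hx using fun i => hπ (b i)
  refine ⟨finrank (ZMod p) V, x, fun i a => χ i a = 1, ?_, ?_, ?_, ?_, ?_, ?_, ?_, ?_⟩
  · have := Module.natCard_eq_pow_finrank (K := ZMod p) (V := V)
    rw [Nat.card_zmod] at this
    exact this
  · intro i a hs
    have h1 := hχ i a
    rw [hs, one_smul, ← hx i, hf] at h1
    rw [← heq]
    exact h1.symm
  · intro i a hs
    have h0' := (hχ2 i a).resolve_left hs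
    have h1 := hχ i a
    rw [h0', neg_one_smul, ← hx i, hf] at h1
    rw [← h0, hadd, h1, add_neg_cancel]
  · intro i h
    rw [← h0, hx i] at h
    exact b.ne_zero i h
  · intro i j g hi hj
    by_contra hij
    have key : ∀ k, x k ∈ zpowers g ⊔ frattini P → ∃ c : ZMod p, b k = c • π g := by
      intro k hk
      rw [← SetLike.mem_coe, Subgroup.mul_normal] at hk
      obtain ⟨u, hu, v, hv, huv⟩ := hk
      obtain ⟨m, rfl⟩ := hu
      refine ⟨(m : ZMod p), ?_⟩
      have huv' : g ^ m * v = x k := huv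
      rw [← hx k, ← huv', hadd, (h0 v).2 hv, add_zero, hzpow, Int.cast_smul_eq_zsmul]
    obtain ⟨c, hc1⟩ := key i hi
    obtain ⟨d, hd1⟩ := key j hj
    have h3 : d • b i = c • b j := by rw [hc1, hd1, smul_smul, smul_smul, mul_comm]
    have h4 := congrArg (b.coord i) h3
    rw [map_smul, map_smul, Basis.coord_apply, Basis.coord_apply, Basis.repr_self, Basis.repr_self,
      Finsupp.single_eq_same, Finsupp.single_eq_of_ne hij, smul_eq_mul, mul_one, smul_zero] at h4
    rw [h4, zero_smul] at hd1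
    exact b.ne_zero j hd1
  · apply frattini_nongenerating
    rw [eq_top_iff]
    intro y _
    have h1 : ∀ v : V, ∃ z ∈ closure (Set.range x), v = π z := by
      intro v
      have hv : v ∈ Submodule.span (ZMod p) (Set.range b) := by rw [b.span_eq]; trivial
      induction hv using Submodule.span_induction with
      | mem v hv =>
        obtain ⟨i, rfl⟩ := hv
        exact ⟨x i, subset_closure ⟨i, rfl⟩, (hx i).symm⟩
      | zero => exact ⟨1, one_mem _, h1π.symm⟩
      | add u v _ _ hu hv =>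
        obtain ⟨z1, h1, rfl⟩ := hu
        obtain ⟨z2, h2, rfl⟩ := hv
        exact ⟨z1 * z2, mul_mem h1 h2, (hadd _ _).symm⟩
      | smul c v _ hv =>
        obtain ⟨z, h1, rfl⟩ := hv
        refine ⟨z ^ c.val, pow_mem h1 _, ?_⟩
        rw [hpow]
        conv_lhs => rw [← ZMod.natCast_zmod_val c]
        rw [Nat.cast_smul_eq_nsmul]
    obtain ⟨z, hz, hyz⟩ := h1 (π y)
    have h3 := (heq z y).1 hyz.symm
    have := mul_mem (mem_sup_left (T := frattini P) hz) (mem_sup_right (S := closure (Set.range x)) h3)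
    rwa [mul_inv_cancel_left] at this
  · intro i a c
    have h1 : χ i (a * c) = χ i a * χ i c := by
      have h2 := hχ i (a * c)
      rw [hff] at h2
      have h3 : (f a * f c) (b i) = (χ i a * χ i c) • b i := by
        rw [Module.End.mul_apply, hχ i c, map_smul, hχ i a, smul_smul, mul_comm]
      rw [h3] at h2
      have h4 : (χ i a * χ i c - χ i (a * c)) • b i = 0 := by rw [sub_smul, h2, sub_self]
      rcases smul_eq_zero.1 h4 with h5 | h5
      · exact (sub_eq_zero.1 h5).symm
      · exact absurd h5 (b.ne_zero i)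
    show χ i (a * c) = 1 ↔ (χ i a = 1 ↔ χ i c = 1)
    rw [h1]
    rcases hχ2 i a with h | h <;> rcases hχ2 i c with h' | h' <;> simp [h, h', hne.symm]
  · intro a ha
    -- T acts trivially on `P/Φ`
    have h1 : f a = 1 := b.ext (fun i => by
      have := ha i
      simp only at this
      rw [hχ, this, one_smul]; rfl)
    have h2 : ∀ y : P, y⁻¹ * (a : MulAut P) y ∈ frattini P := by
      intro y
      have h3 := LinearMap.congr_fun h1 (π y)
      rw [hf] at h3
      exact (heq _ _).1 h3.symm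
    let F : Subgroup P := ((a : MulAut P).toMonoidHom).eqLocus (MonoidHom.id P)
    have h4 : F = ⊤ := by
      apply frattini_nongenerating
      rw [eq_top_iff]
      intro y _
      obtain ⟨z, hz1, hz2⟩ := lift_fixed hodd (frattini P) a (hsq a a.2) y (h2 y)
      have hzF : z ∈ F := hz1
      have := mul_mem (mem_sup_left (T := frattini P) hzF) (mem_sup_right (S := F) (inv_mem hz2))
      have e : z * (y⁻¹ * z)⁻¹ = y := by group
      rwa [e] at this
    apply Subtype.ext
    apply MulEquiv.ext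
    intro y
    have : y ∈ F := by rw [h4]; trivial
    exact this

theorem data {p : ℕ} [hp : Fact p.Prime] (hp2 : p ≠ 2) (hP : IsPGroup p P) (I : Subgroup (MulAut P))
    (hc : ∀ a ∈ I, ∀ b ∈ I, a * b = b * a) (hsq : ∀ a ∈ I, a * a = 1) :
    ∃ (n : ℕ) (x : Fin n → P) (s : Fin n → I → Prop), (frattini P).index = p ^ n ∧
      (∀ i (a : I), s i a → (x i)⁻¹ * (a : MulAut P) (x i) ∈ frattini P) ∧
      (∀ i (a : I), ¬ s i a → (x i) * (a : MulAut P) (x i) ∈ frattini P) ∧
      (∀ i, x i ∉ frattini P) ∧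
      (∀ i j (g : P), x i ∈ zpowers g ⊔ frattini P → x j ∈ zpowers g ⊔ frattini P → i = j) ∧
      closure (Set.range x) = ⊤ ∧
      (∀ i (a b : I), s i (a * b) ↔ (s i a ↔ s i b)) ∧
      (∀ a : I, (∀ i, s i a) → a = 1) := by
  have hcomm : ∀ a b : P ⧸ frattini P, a * b = b * a := by
    intro a b
    obtain ⟨a, rfl⟩ := QuotientGroup.mk_surjective a
    obtain ⟨b, rfl⟩ := QuotientGroup.mk_surjective b
    rw [← QuotientGroup.mk_mul, ← QuotientGroup.mk_mul, QuotientGroup.eq]
    have h1 : ⁅b⁻¹, a⁻¹⁆ ∈ frattini P := Cfsg.Agent.H2.PGroup.commutator_le_frattini hP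
      (by rw [_root_.commutator_def]; exact commutator_mem_commutator (mem_top _) (mem_top _))
    have e : (a * b)⁻¹ * (b * a) = ⁅b⁻¹, a⁻¹⁆ := by rw [commutatorElement_def]; group
    rw [e]; exact h1
  let cg : CommGroup (P ⧸ frattini P) := { (inferInstance : Group (P ⧸ frattini P)) with mul_comm := hcomm }
  let ac : AddCommGroup (Additive (P ⧸ frattini P)) := @Additive.addCommGroup _ cg
  let i1 : Module (ZMod p) (Additive (P ⧸ frattini P)) := AddCommGroup.zmodModule (n := p) (fun v => by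
    obtain ⟨v, rfl⟩ := Additive.ofMul.surjective v
    obtain ⟨v, rfl⟩ := QuotientGroup.mk_surjective v
    exact congrArg Additive.ofMul ((QuotientGroup.eq_one_iff _).2 (Cfsg.Agent.H2.PGroup.pow_mem_frattini hP v)))
  have hfin : Finite (Additive (P ⧸ frattini P)) := inferInstanceAs (Finite (P ⧸ frattini P))
  have key := @data' P _ _ p hp hp2 hP I hc hsq (Additive (P ⧸ frattini P)) ac i1 hfin
    (fun y => Additive.ofMul (QuotientGroup.mk y)) (fun v => by
      obtain ⟨v, rfl⟩ := Additive.ofMul.surjective v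
      obtain ⟨v, rfl⟩ := QuotientGroup.mk_surjective v
      exact ⟨v, rfl⟩) (fun _ _ => rfl) (fun y => by
        rw [← QuotientGroup.eq_one_iff y]
        exact Iff.rfl)
      (fun a => (AddMonoidHom.toZModLinearMap p
        { toFun := fun v => Additive.ofMul (H24.FratAut.toQuot P (a : MulAut P) v.toMul)
          map_zero' := by
            exact congrArg Additive.ofMul (map_one (H24.FratAut.toQuot P (a : MulAut P)))
          map_add' := fun u v => by
            exact congrArg Additive.ofMul (map_mul (H24.FratAut.toQuot P (a : MulAut P)) u.toMul v.toMul) }))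
      (fun a y => rfl)
  obtain ⟨n, x, s, hn, rest⟩ := key
  exact ⟨n, x, s, hn, rest⟩

theorem quot_comm {p : ℕ} [hp : Fact p.Prime] (hP : IsPGroup p P) (a b : P ⧸ frattini P) : a * b = b * a := by
  obtain ⟨a, rfl⟩ := QuotientGroup.mk_surjective a
  obtain ⟨b, rfl⟩ := QuotientGroup.mk_surjective b
  rw [← QuotientGroup.mk_mul, ← QuotientGroup.mk_mul, QuotientGroup.eq]
  have h1 : ⁅b⁻¹, a⁻¹⁆ ∈ frattini P := Cfsg.Agent.H2.PGroup.commutator_le_frattini hP
    (by rw [_root_.commutator_def]; exact commutator_mem_commutator (mem_top _) (mem_top _))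
  have e : (a * b)⁻¹ * (b * a) = ⁅b⁻¹, a⁻¹⁆ := by rw [commutatorElement_def]; group
  rw [e]; exact h1

theorem neg_all {p : ℕ} [hp : Fact p.Prime] (hP : IsPGroup p P) (N : MulAut P) {ι : Type*} (x : ι → P)
    (hx : closure (Set.range x) = ⊤) (hN : ∀ i, x i * N (x i) ∈ frattini P) (y : P) : y * N y ∈ frattini P := by
  have key : ∀ z : P, z * N z ∈ frattini P ↔ (QuotientGroup.mk (N z) : P ⧸ frattini P) = (QuotientGroup.mk z)⁻¹ := by
    intro z
    rw [← QuotientGroup.eq_one_iff, QuotientGroup.mk_mul, eq_inv_iff_mul_eq_one, quot_comm hP]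
  have hy : y ∈ closure (Set.range x) := by rw [hx]; trivial
  induction hy using closure_induction with
  | mem y hy => obtain ⟨i, rfl⟩ := hy; exact hN i
  | one => rw [map_one, mul_one]; exact one_mem _
  | mul a b _ _ ha hb =>
    rw [key] at ha hb ⊢
    rw [map_mul, QuotientGroup.mk_mul, QuotientGroup.mk_mul, ha, hb, mul_inv_rev, quot_comm hP]
  | inv a _ ha =>
    rw [key] at ha ⊢
    rw [map_inv, QuotientGroup.mk_inv, ha, QuotientGroup.mk_inv]

theorem sq_eq_one {Q : Type*} [Group Q] [Finite Q] (hodd : Odd (Nat.card Q)) {y : Q} (hy : y * y = 1) : y = 1 := by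
  obtain ⟨k, hk⟩ := hodd
  have h1 : y ^ (Nat.card Q) = 1 := pow_card_eq_one'
  rw [hk, pow_succ, pow_mul, pow_two, hy, one_pow, one_mul] at h1
  exact h1

theorem fix_trivial {p : ℕ} [hp : Fact p.Prime] (hp2 : p ≠ 2) (hP : IsPGroup p P) (t N : MulAut P)
    (htN : t * N = N * t) (ht2 : t * t = 1) (hN2 : N * N = 1) (g : P)
    (hg : ∀ x, t x = x ↔ x ∈ zpowers g) (x0 : P) (hx0 : x0 ∉ frattini P) (htx : x0⁻¹ * t x0 ∈ frattini P)
    (hNinv : ∀ y, y * N y ∈ frattini P) (y : P) (hy : t y = y) (hNy : N y = y) : y = 1 := by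
  have hodd := odd_card hp2 hP
  have hNN : ∀ y, N (N y) = y := fun y => congrArg (fun f : MulAut P => f y) hN2
  have hg' : t g = g := (hg g).2 (mem_zpowers g)
  have htNy : ∀ y, t (N y) = N (t y) := fun y => congrArg (fun f : MulAut P => f y) htN
  have hNg : N g ∈ zpowers g := (hg _).1 (by rw [htNy, hg'])
  obtain ⟨k, hk⟩ := hNg
  have hk : g ^ k = N g := hk
  have hgΦ : g ∉ frattini P := by
    intro h
    obtain ⟨y0, h1, h2⟩ := lift_fixed hodd (frattini P) t ht2 x0 htx
    have h3 : y0 ∈ frattini P := (zpowers_le.2 h) ((hg _).1 h1)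
    apply hx0
    have := mul_mem h3 (inv_mem h2)
    have e : y0 * (x0⁻¹ * y0)⁻¹ = x0 := by group
    rwa [e] at this
  have hkk : g ^ (k * k) = g := by
    rw [zpow_mul, hk, ← map_zpow, hk, hNN]
  have hpk : ¬ (p : ℤ) ∣ (k - 1) := by
    rintro ⟨m, hm⟩
    apply hgΦ
    have h1 : g ^ (k - 1) ∈ frattini P := by
      rw [hm, zpow_mul, zpow_natCast]
      exact zpow_mem (Cfsg.Agent.H2.PGroup.pow_mem_frattini hP g) m
    have h2 : g ^ (k + 1) ∈ frattini P := by
      have := hNinv g
      rw [← hk] at this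
      rw [add_comm, zpow_one_add]
      exact this
    have h3 : g ^ (2 : ℤ) ∈ frattini P := by
      have := mul_mem h2 (inv_mem h1)
      rw [← zpow_neg, ← zpow_add] at this
      have e : k + 1 + -(k - 1) = 2 := by ring
      rwa [e] at this
    obtain ⟨j, hj⟩ := hodd
    have h4 := zpow_mem h3 ((j : ℤ) + 1)
    rw [← zpow_mul] at h4
    have e : (2 : ℤ) * (j + 1) = (Nat.card P : ℤ) + 1 := by rw [hj]; push_cast; ring
    rw [e, zpow_add_one, zpow_natCast, pow_card_eq_one', one_mul] at h4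
    exact h4
  have hk1 : g ^ (k + 1) = 1 := by
    rw [← orderOf_dvd_iff_zpow_eq_one]
    have h1 : (orderOf g : ℤ) ∣ (k + 1) * (k - 1) := by
      rw [orderOf_dvd_iff_zpow_eq_one]
      have e : (k + 1) * (k - 1) = k * k - 1 := by ring
      rw [e, zpow_sub_one, hkk, mul_inv_cancel]
    obtain ⟨a, ha⟩ := (IsPGroup.iff_orderOf.1 hP) g
    have hcop : IsCoprime (orderOf g : ℤ) (k - 1) := by
      rw [ha]; push_cast
      apply IsCoprime.pow_left
      exact (Nat.prime_iff_prime_int.1 hp.out).coprime_iff_not_dvd.2 hpk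
    exact hcop.dvd_of_dvd_mul_right h1
  obtain ⟨j, hj⟩ := (hg _).1 hy
  have hj : g ^ j = y := hj
  have h5 : N y = y⁻¹ := by
    rw [← hj, map_zpow, ← hk, ← zpow_mul, ← zpow_neg]
    have e : k * j = (k + 1) * j + (-j) := by ring
    rw [e, zpow_add, zpow_mul, hk1, one_zpow, one_mul]
  rw [h5] at hNy
  apply sq_eq_one hodd
  nth_rewrite 1 [← hNy]
  rw [inv_mul_cancel]

end Cfsg.Agent.H24.Broad
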