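import Mathlib
import Cfsg.Agent.H1_Coprime2
import Cfsg.Agent.H1_Nilp
import Cfsg.Agent.H22_Maschke
import Cfsg.Agent.H24_FratAut
import Cfsg.Agent.H2_PGroup

/-! Coprime action: invariant Sylow subgroups (external form), maximal invariant subgroups. -/

namespace Cfsg.Agent.H24.CoA

open Subgroup
open scoped Pointwise commutatorElement

variable {A G : Type*} [Group A] [Finite A] [Group G] [Finite G] [MulDistribMulAction A G]

theorem inv_sylow (hcop : (Nat.card A).Coprime (Nat.card G)) (hsol : Group.IsSolvable A ∨ Group.IsSolvable G)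
    (p : ℕ) [Fact p.Prime] : ∃ P : Sylow p G, ∀ a : A, ∀ x ∈ (P : Subgroup G), a • x ∈ (P : Subgroup G) := by
  let φ : A →* MulAut G := MulDistribMulAction.toMulAut A G
  let iG : G →* G ⋊[φ] A := SemidirectProduct.inl
  let iA : A →* G ⋊[φ] A := SemidirectProduct.inr
  have hiG : Function.Injective iG := SemidirectProduct.inl_injective
  have hiA : Function.Injective iA := SemidirectProduct.inr_injective
  haveI : Finite (G ⋊[φ] A) := Finite.of_equiv _ SemidirectProduct.equivProd.symm
  have hcG : Nat.card iG.range = Nat.card G := Nat.card_congr (MonoidHom.ofInjective hiG).toEquiv.symm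
  have hcA : Nat.card iA.range = Nat.card A := Nat.card_congr (MonoidHom.ofInjective hiA).toEquiv.symm
  haveI hn : iG.range.Normal := by
    have : iG.range = (SemidirectProduct.rightHom : G ⋊[φ] A →* A).ker :=
      SemidirectProduct.range_inl_eq_ker_rightHom
    rw [this]; infer_instance
  have hs : Group.IsSolvable iA.range ∨ Group.IsSolvable iG.range := by
    rcases hsol with h | h
    · left
      exact Group.isSolvable_of_surjective (f := iA.rangeRestrict) iA.rangeRestrict_surjective
    · right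
      exact Group.isSolvable_of_surjective (f := iG.rangeRestrict) iG.rangeRestrict_surjective
  obtain ⟨P, hP⟩ := H1.Coprime.invariant_sylow_exists iA.range iG.range (by rw [normalizer_eq_top]; exact le_top)
    (by rw [hcG, hcA]; exact hcop) hs p
  let S : Subgroup (G ⋊[φ] A) := (P : Subgroup iG.range).map iG.range.subtype
  have hSle : S ≤ iG.range := map_subtype_le _
  have hScard : Nat.card S = p ^ (Nat.card G).factorization p := by
    rw [← hcG]; exact H1.Coprime.card_map_sylow P
  have hmap : (S.comap iG).map iG = S := by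
    rw [Subgroup.map_comap_eq, inf_eq_right.2 hSle]
  have hcard : Nat.card (S.comap iG) = p ^ (Nat.card G).factorization p := by
    rw [← hScard, ← hmap, Subgroup.card_map_of_injective hiG, hmap]
  refine ⟨Sylow.ofCard (S.comap iG) hcard, ?_⟩
  intro a x hx
  change iG (a • x) ∈ S
  have hx' : iG x ∈ S := hx
  have h1 : iG (a • x) = iA a * iG x * (iA a)⁻¹ := by
    have := SemidirectProduct.inl_aut (φ := φ) a x
    rw [← map_inv]
    exact this
  rw [h1]
  exact (mem_normalizer_iff.1 (hP ⟨a, rfl⟩) (iG x)).1 hx'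

variable (A) in
/-- maximal invariant subgroups -/
def MaxA (M : Subgroup G) : Prop :=
  M ≠ ⊤ ∧ (∀ a : A, ∀ x ∈ M, a • x ∈ M) ∧ ∀ L : Subgroup G, M < L → (∀ a : A, ∀ x ∈ L, a • x ∈ L) → L = ⊤

theorem exists_max {L : Subgroup G} (hL : L ≠ ⊤) (hi : ∀ a : A, ∀ x ∈ L, a • x ∈ L) :
    ∃ M : Subgroup G, MaxA A M ∧ L ≤ M := by
  obtain ⟨M, ⟨hLM, hM, hMi⟩, hmax⟩ := (Set.toFinite {M : Subgroup G | L ≤ M ∧ M ≠ ⊤ ∧ ∀ a : A, ∀ x ∈ M, a • x ∈ M}).exists_maximal
    ⟨L, le_rfl, hL, hi⟩
  refine ⟨M, ⟨hM, hMi, ?_⟩, hLM⟩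
  intro K hMK hK
  by_contra hKt
  exact hMK.not_ge (hmax ⟨hLM.trans hMK.le, hKt, hK⟩ hMK.le)

theorem frattini_inv (a : A) {x : G} (hx : x ∈ frattini G) : a • x ∈ frattini G := by
  have h := (frattini_characteristic (G := G)).fixed (MulDistribMulAction.toMulAut A G a)
  rw [← h] at hx
  exact hx

theorem sup_inv {L K : Subgroup G} (hL : ∀ a : A, ∀ x ∈ L, a • x ∈ L) (hK : ∀ a : A, ∀ x ∈ K, a • x ∈ K) (a : A)
    {x : G} (hx : x ∈ L ⊔ K) : a • x ∈ L ⊔ K := by
  have hle : L ⊔ K ≤ (L ⊔ K).comap (MulDistribMulAction.toMulAut A G a).toMonoidHom := by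
    refine sup_le (fun y hy => ?_) (fun y hy => ?_)
    · exact mem_sup_left (hL a y hy)
    · exact mem_sup_right (hK a y hy)
  exact hle hx

theorem frattini_le_max {M : Subgroup G} (h : MaxA A M) : frattini G ≤ M := by
  by_contra hcon
  have h1 : M < M ⊔ frattini G := by
    refine lt_of_le_of_ne le_sup_left ?_
    intro h
    exact hcon (h ▸ le_sup_right)
  have h2 := h.2.2 _ h1 (fun a x hx => sup_inv h.2.1 (fun a x hx => frattini_inv a hx) a hx)
  exact h.1 (frattini_nongenerating h2)

theorem main (hcop : (Nat.card A).Coprime (Nat.card G)) (hsol : Group.IsSolvable A ∨ Group.IsSolvable G) :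
    ((∀ M N : Subgroup G, MaxA A M → MaxA A N →
        ∃ c : G, (∀ a : A, a • c = c) ∧ N = MulAut.conj c • M) ↔
      ((∃ p : ℕ, p.Prime ∧ IsPGroup p G) ∧ ∀ L : Subgroup G, frattini G < L → (∀ a : A, ∀ x ∈ L, a • x ∈ L) → L = ⊤)) ∧
    (((∃ p : ℕ, p.Prime ∧ IsPGroup p G) ∧ ∀ L : Subgroup G, frattini G < L → (∀ a : A, ∀ x ∈ L, a • x ∈ L) → L = ⊤) →
      ∀ M : Subgroup G, MaxA A M ↔ (M = frattini G ∧ M ≠ ⊤)) := by
  have key : (((∃ p : ℕ, p.Prime ∧ IsPGroup p G) ∧ ∀ L : Subgroup G, frattini G < L → (∀ a : A, ∀ x ∈ L, a • x ∈ L) → L = ⊤) →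
      ∀ M : Subgroup G, MaxA A M ↔ (M = frattini G ∧ M ≠ ⊤)) := by
    rintro ⟨-, hirr⟩ M
    constructor
    · intro hM
      have h1 := frattini_le_max hM
      rcases h1.lt_or_eq with h2 | h2
      · exact absurd (hirr M h2 hM.2.1) hM.1
      · exact ⟨h2.symm, hM.1⟩
    · rintro ⟨rfl, h⟩
      exact ⟨h, fun a x hx => frattini_inv a hx, fun L hL hi => hirr L hL hi⟩
  refine ⟨⟨?_, ?_⟩, key⟩
  · intro hconj
    have hpg : ∃ p : ℕ, p.Prime ∧ IsPGroup p G := by
      by_contra hcon
      push Not at hcon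
      by_cases hbt : (⊥ : Subgroup G) = ⊤
      · apply hcon 2 Nat.prime_two
        intro g
        have : g ∈ (⊥ : Subgroup G) := by rw [hbt]; trivial
        rw [mem_bot] at this
        exact ⟨0, by rw [this, one_pow]⟩
      obtain ⟨M, hM, -⟩ := exists_max (A := A) hbt (by
        intro a x hx
        rw [mem_bot] at hx ⊢
        rw [hx, smul_one])
      apply hM.1
      apply Subgroup.eq_top_of_card_eq
      apply Nat.dvd_antisymm (Subgroup.card_subgroup_dvd_card M)
      -- each `p`-part of the order divides the order of `M`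
      rw [← Nat.factorization_prime_le_iff_dvd Nat.card_pos.ne' Nat.card_pos.ne']
      intro p hp
      haveI : Fact p.Prime := ⟨hp⟩
      obtain ⟨P, hP⟩ := inv_sylow hcop hsol p
      have hPt : (P : Subgroup G) ≠ ⊤ := by
        intro h
        apply hcon p hp
        have h1 := P.isPGroup'
        rw [h] at h1
        exact h1.of_equiv Subgroup.topEquiv
      obtain ⟨N, hN, hPN⟩ := exists_max hPt hP
      obtain ⟨c, -, hc⟩ := hconj N M hN hM
      have h1 : Nat.card M = Nat.card N := by
        rw [hc]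
        exact (Nat.card_congr (Subgroup.equivSMul (MulAut.conj c) N).toEquiv).symm
      have h2 := Subgroup.card_dvd_of_le hPN
      rw [P.card_eq_multiplicity] at h2
      rw [h1]
      exact (hp.pow_dvd_iff_le_factorization Nat.card_pos.ne').1 h2
    obtain ⟨p, hp, hG⟩ := hpg
    refine ⟨⟨p, hp, hG⟩, ?_⟩
    intro L hL hi
    by_contra hLt
    haveI : Fact p.Prime := ⟨hp⟩
    obtain ⟨M, hM, hLM⟩ := exists_max hLt hi
    -- Maschke on `G / Φ(G)`
    have hcomm : ∀ a b : G ⧸ frattini G, a * b = b * a := by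
      intro a b
      obtain ⟨x, rfl⟩ := QuotientGroup.mk_surjective a
      obtain ⟨y, rfl⟩ := QuotientGroup.mk_surjective b
      rw [← QuotientGroup.mk_mul, ← QuotientGroup.mk_mul, QuotientGroup.eq]
      have h1 := H2.PGroup.commutator_le_frattini hG
      have h2 : ⁅y⁻¹, x⁻¹⁆ ∈ commutator G := commutator_mem_commutator (mem_top _) (mem_top _)
      have h3 : (x * y)⁻¹ * (y * x) = ⁅y⁻¹, x⁻¹⁆ := by rw [commutatorElement_def]; group
      rw [h3]
      exact h1 h2
    letI : CommGroup (G ⧸ frattini G) := { (inferInstance : Group (G ⧸ frattini G)) with mul_comm := hcomm }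
    have hcp : (Nat.card A).Coprime p := by
      have hne : Nat.card G ≠ 1 := by
        intro h1
        apply hLt
        have := (Nat.card_eq_one_iff_unique.1 h1).1
        exact Subsingleton.elim _ _
      obtain ⟨k, hk⟩ := IsPGroup.iff_card.1 hG
      have hk0 : k ≠ 0 := by
        rintro rfl
        exact hne (by rw [hk, pow_zero])
      exact Nat.Coprime.coprime_dvd_right (by rw [hk]; exact dvd_pow_self p hk0) hcop
    let σ : A →* MulAut (G ⧸ frattini G) := (FratAut.toQuot G).comp (MulDistribMulAction.toMulAut A G)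
    have hσ : ∀ (a : A) (x : G), σ a (x : G ⧸ frattini G) = ((a • x : G) : G ⧸ frattini G) := fun a x => rfl
    obtain ⟨U, hU1, hU2, hU3⟩ := H22.Maschke.maschke (p := p) (V := G ⧸ frattini G) (by
      intro v
      obtain ⟨x, rfl⟩ := QuotientGroup.mk_surjective v
      have h1 := H2.PGroup.pow_mem_frattini hG x
      have h2 : ((x : G ⧸ frattini G)) ^ p = ((x ^ p : G) : G ⧸ frattini G) := (QuotientGroup.mk_pow _ _ _).symm
      rw [h2]
      exact (QuotientGroup.eq_one_iff _).2 h1) σ hcp (M.map (QuotientGroup.mk' (frattini G))) (by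
      rintro a _ ⟨x, hx, rfl⟩
      exact ⟨a • x, hM.2.1 a x hx, rfl⟩)
    have hkM : (QuotientGroup.mk' (frattini G)).ker ≤ M := by
      rw [QuotientGroup.ker_mk']; exact frattini_le_max hM
    obtain ⟨K, hK⟩ : ∃ K, K = U.comap (QuotientGroup.mk' (frattini G)) := ⟨_, rfl⟩
    have hKi : ∀ a : A, ∀ x ∈ K, a • x ∈ K := by
      intro a x hx
      rw [hK] at hx ⊢
      exact hU1 a _ hx
    have hKM : K ⊓ M = frattini G := by
      have h1 : K ⊓ M = (U ⊓ M.map (QuotientGroup.mk' (frattini G))).comap (QuotientGroup.mk' (frattini G)) := by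
        rw [Subgroup.comap_inf, ← hK, Subgroup.comap_map_eq_self hkM]
      rw [h1, hU2, MonoidHom.comap_bot, QuotientGroup.ker_mk']
    have hKsup : K ⊔ M = ⊤ := by
      rw [eq_top_iff]
      intro x _
      have h1 : (QuotientGroup.mk' (frattini G)) x ∈ U ⊔ M.map (QuotientGroup.mk' (frattini G)) := by rw [hU3]; trivial
      have h2 : U = K.map (QuotientGroup.mk' (frattini G)) := by
        rw [hK, Subgroup.map_comap_eq_self_of_surjective (QuotientGroup.mk'_surjective _)]
      rw [h2, ← Subgroup.map_sup] at h1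
      have h3 : x ∈ ((K ⊔ M).map (QuotientGroup.mk' (frattini G))).comap (QuotientGroup.mk' (frattini G)) := h1
      rwa [Subgroup.comap_map_eq_self (hkM.trans le_sup_right)] at h3
    by_cases hKt : K = ⊤
    · rw [hKt, top_inf_eq] at hKM
      rw [hKM] at hLM
      exact absurd hLM hL.not_ge
    · obtain ⟨N, hN, hKN⟩ := exists_max hKt hKi
      -- `M` is normal, so it is the only maximal invariant subgroup
      have hMn : M.Normal := by
        rw [← Subgroup.comap_map_eq_self hkM]
        haveI : (M.map (QuotientGroup.mk' (frattini G))).Normal := by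
          refine ⟨fun x hx g => ?_⟩
          rw [mul_comm g x, mul_inv_cancel_right]; exact hx
        infer_instance
      obtain ⟨c, -, hc⟩ := hconj M N hM hN
      have hNM : N = M := by
        rw [hc]
        exact Subgroup.Normal.conjAct hMn c
      rw [hNM] at hKN
      apply hM.1
      rw [← hKsup, sup_eq_right.2 hKN]
  · intro h M N hM hN
    have h1 := (key h M).1 hM
    have h2 := (key h N).1 hN
    refine ⟨1, fun a => smul_one a, ?_⟩
    rw [map_one, one_smul, h1.1, h2.1]

end Cfsg.Agent.H24.CoA
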