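import Mathlib
import Cfsg.Agent.H11_FStar
import Cfsg.Agent.H1_Nilp

/-! Groups with a cyclic Sylow subgroup and trivial `O_{p'}`. -/

namespace Cfsg.Agent.H24.CycSyl

open Subgroup Cfsg
open scoped Pointwise

universe u

/-- a `p'`-element acting on a cyclic `p`-group and fixing the subgroup of order `p` -/
theorem fix_cyclic {G : Type*} [Group G] {p : ℕ} {t g : G} {k : ℕ} (ht : t ^ p ^ (k + 1) = 1) (hg : (orderOf g).Coprime p)
    {n : ℤ} (hn : g * t * g⁻¹ = t ^ n) (hn1 : (p : ℤ) ∣ n - 1) : g * t = t * g := by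
  have h1 : ∀ m : ℕ, g ^ m * t * (g ^ m)⁻¹ = t ^ n ^ m := by
    intro m
    induction m with
    | zero => simp
    | succ m ih =>
      have : g ^ (m + 1) * t * (g ^ (m + 1))⁻¹ = g * (g ^ m * t * (g ^ m)⁻¹) * g⁻¹ := by
        rw [pow_succ' g m]; group
      rw [this, ih, ← conj_zpow, hn, ← zpow_mul, pow_succ' n m]
  have h2 : ((p : ℤ) ^ (k + 1)) ∣ n ^ p ^ k - 1 := by
    have := dvd_sub_pow_of_dvd_sub (R := ℤ) (p := p) (a := n) (b := 1) hn1 k
    rwa [one_pow] at this
  have h3 : g ^ p ^ k * t * (g ^ p ^ k)⁻¹ = t := by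
    rw [h1]
    obtain ⟨c, hc⟩ := h2
    have h4 : n ^ p ^ k = (p : ℤ) ^ (k + 1) * c + 1 := by linarith
    rw [h4, zpow_add, zpow_mul, zpow_one]
    have h5 : t ^ ((p : ℤ) ^ (k + 1)) = 1 := by
      have : ((p : ℤ) ^ (k + 1)) = ((p ^ (k + 1) : ℕ) : ℤ) := by push_cast; ring
      rw [this, zpow_natCast, ht]
    rw [h5, one_zpow, one_mul]
  have h6 : g ^ p ^ k ∈ centralizer ({t} : Set G) := by
    rw [mem_centralizer_singleton_iff]
    calc g ^ p ^ k * t = g ^ p ^ k * t * (g ^ p ^ k)⁻¹ * g ^ p ^ k := by group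
      _ = t * g ^ p ^ k := by rw [h3]
  have h7 : g ∈ centralizer ({t} : Set G) := by
    have hcop : (orderOf g).Coprime (p ^ k) := Nat.Coprime.pow_right k hg
    obtain ⟨m, hm⟩ : ∃ m : ℕ, (g ^ p ^ k) ^ m = g := exists_pow_eq_self_of_coprime hcop.symm
    rw [← hm]
    exact pow_mem h6 m
  exact mem_centralizer_singleton_iff.1 h7

/-- decomposition of an element -/
theorem exists_parts {G : Type*} [Group G] [Finite G] {p : ℕ} [hp : Fact p.Prime] (g : G) :
    ∃ a b : ℤ, g = g ^ a * g ^ b ∧ (∃ k : ℕ, (g ^ a) ^ p ^ k = 1) ∧ (orderOf (g ^ b)).Coprime p := by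
  obtain ⟨j, m, hm, hg⟩ := Nat.exists_eq_pow_mul_and_not_dvd (orderOf_pos g).ne' p hp.out.ne_one
  have hcop : Nat.Coprime m (p ^ j) := by
    apply Nat.Coprime.pow_right
    exact ((Nat.Prime.coprime_iff_not_dvd hp.out).2 hm).symm
  have h5 := Nat.gcd_eq_gcd_ab m (p ^ j)
  rw [hcop.gcd_eq_one] at h5
  refine ⟨(m : ℤ) * Nat.gcdA m (p ^ j), ((p ^ j : ℕ) : ℤ) * Nat.gcdB m (p ^ j), ?_, ⟨j, ?_⟩, ?_⟩
  · rw [← zpow_add, ← h5]; simp
  · rw [← zpow_natCast, ← zpow_mul]
    have : (m : ℤ) * Nat.gcdA m (p ^ j) * ((p ^ j : ℕ) : ℤ) = ((orderOf g : ℕ) : ℤ) * Nat.gcdA m (p ^ j) := by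
      rw [hg]; push_cast; ring
    rw [this, zpow_mul, zpow_natCast, pow_orderOf_eq_one, one_zpow]
  · have h1 : (g ^ (((p ^ j : ℕ) : ℤ) * Nat.gcdB m (p ^ j))) ^ m = 1 := by
      rw [← zpow_natCast, ← zpow_mul]
      have : ((p ^ j : ℕ) : ℤ) * Nat.gcdB m (p ^ j) * (m : ℤ) = ((orderOf g : ℕ) : ℤ) * Nat.gcdB m (p ^ j) := by
        rw [hg]; push_cast; ring
      rw [this, zpow_mul, zpow_natCast, pow_orderOf_eq_one, one_zpow]
    exact Nat.Coprime.coprime_dvd_left (orderOf_dvd_of_pow_eq_one h1)
      ((Nat.Prime.coprime_iff_not_dvd hp.out).2 hm).symm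

/-- `p`-elements normalizing a Sylow subgroup lie in it -/
theorem mem_sylow_of_norm {G : Type*} [Group G] [Finite G] {p : ℕ} [hp : Fact p.Prime] (P : Sylow p G) {x : G}
    (hx : x ∈ normalizer ((P : Subgroup G) : Set G)) {k : ℕ} (hk : x ^ p ^ k = 1) : x ∈ (P : Subgroup G) := by
  have h1 : IsPGroup p (zpowers x) := by
    intro y
    obtain ⟨i, hi⟩ := y.2
    refine ⟨k, Subtype.ext ?_⟩
    change (y : G) ^ p ^ k = 1
    rw [← hi]
    change (x ^ i) ^ p ^ k = 1
    rw [← zpow_natCast, ← zpow_mul, mul_comm, zpow_mul, zpow_natCast, hk, one_zpow]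
  have h2 : IsPGroup p (zpowers x ⊔ (P : Subgroup G) : Subgroup G) :=
    h1.to_sup_of_normal_right' P.isPGroup' (by rw [zpowers_le]; exact hx)
  have h3 := P.is_maximal' h2 le_sup_right
  rw [← h3]
  exact mem_sup_left (mem_zpowers x)

theorem norm_le_cent {X : Type*} [Group X] [Finite X] {p : ℕ} [hp : Fact p.Prime] (P : Sylow p X)
    (hP : IsCyclic (P : Subgroup X)) {r : X} (hr : r ∈ (P : Subgroup X)) (hr1 : r ≠ 1) (hc : ∀ x, r * x = x * r) :
    normalizer ((P : Subgroup X) : Set X) ≤ centralizer ((P : Subgroup X) : Set X) := by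
  obtain ⟨⟨t, ht⟩, hgen⟩ := hP.exists_generator
  have hmem : ∀ x ∈ (P : Subgroup X), ∃ i : ℤ, t ^ i = x := by
    intro x hx
    obtain ⟨i, hi⟩ := hgen ⟨x, hx⟩
    exact ⟨i, congrArg Subtype.val hi⟩
  obtain ⟨k, hk⟩ := (IsPGroup.iff_orderOf.1 P.isPGroup') ⟨t, ht⟩
  have hk' : orderOf t = p ^ k := by
    rw [← hk, ← Subgroup.orderOf_coe]
  obtain ⟨j, hj⟩ := hmem r hr
  have hk0 : k ≠ 0 := by
    rintro rfl
    rw [pow_zero, orderOf_eq_one_iff] at hk'
    apply hr1
    rw [← hj, hk', one_zpow]
  obtain ⟨k, rfl⟩ := Nat.exists_eq_succ_of_ne_zero hk0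
  -- elements commuting with `t` centralize `P`
  have hct : ∀ g : X, g * t = t * g → g ∈ centralizer ((P : Subgroup X) : Set X) := by
    intro g hg
    rw [mem_centralizer_iff]
    intro x hx
    obtain ⟨i, rfl⟩ := hmem x hx
    have : Commute t g := hg.symm
    exact (this.zpow_left i).eq
  intro g hg
  obtain ⟨a, b, hab, ⟨l, hl⟩, hb⟩ := exists_parts (p := p) g
  rw [hab]
  refine mul_mem ?_ ?_
  · have h1 := mem_sylow_of_norm P (zpow_mem hg a) hl
    obtain ⟨i, hi⟩ := hmem _ h1
    apply hct
    rw [← hi]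
    exact (Commute.zpow_self t i).eq
  · apply hct
    obtain ⟨h, hh⟩ : ∃ h, h = g ^ b := ⟨_, rfl⟩
    have hN : h ∈ normalizer ((P : Subgroup X) : Set X) := by rw [hh]; exact zpow_mem hg b
    rw [← hh] at hb ⊢
    obtain ⟨n, hn⟩ := hmem _ ((mem_normalizer_iff.1 hN t).1 ht)
    refine fix_cyclic (p := p) (k := k) (t := t) (n := n) (by rw [← hk']; exact pow_orderOf_eq_one t) hb hn.symm ?_
    -- `p ∣ n - 1`
    have h1 : h * r * h⁻¹ = r := by rw [← hc h, mul_inv_cancel_right]
    rw [← hj, ← conj_zpow, ← hn, ← zpow_mul] at h1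
    have h2 : t ^ ((n - 1) * j) = 1 := by
      have : (n - 1) * j = n * j - j := by ring
      rw [this, zpow_sub, h1, mul_inv_cancel]
    have h3 := orderOf_dvd_iff_zpow_eq_one.2 h2
    rw [hk'] at h3
    by_contra hcon
    apply hr1
    rw [← hj]
    apply orderOf_dvd_iff_zpow_eq_one.1
    rw [hk']
    refine IsCoprime.dvd_of_dvd_mul_left ?_ h3
    push_cast
    apply IsCoprime.pow_left
    exact (Nat.prime_iff_prime_int.1 hp.out).coprime_iff_not_dvd.2 hcon

/-- with trivial `O_{p'}` and a central `p`-element in a cyclic Sylow subgroup -/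
theorem eq_top_of_central {X : Type u} [Group X] [Finite X] {p : ℕ} [hp : Fact p.Prime] (P : Sylow p X)
    (hP : IsCyclic (P : Subgroup X)) (hO : pPrimeCore p X = ⊥) {r : X} (hr : r ∈ (P : Subgroup X)) (hr1 : r ≠ 1)
    (hc : ∀ x, r * x = x * r) : (P : Subgroup X) = ⊤ := by
  have h := norm_le_cent P hP hr hr1 hc
  have h1 := MonoidHom.ker_transferSylow_isComplement' P h
  have h2 := MonoidHom.not_dvd_card_ker_transferSylow P h
  have h3 : (MonoidHom.transferSylow P h).ker ≤ pPrimeCore p X := by
    apply H11.Cores.le_pPrimeCore p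
    exact ((Nat.Prime.coprime_iff_not_dvd hp.out).2 h2).symm
  rw [hO, le_bot_iff] at h3
  rw [h3] at h1
  have h4 := h1.sup_eq_top
  rwa [bot_sup_eq] at h4

section Main

variable {K : Type u} [Group K] [Finite K] {p : ℕ} [hp : Fact p.Prime]

theorem case_one (hO : pPrimeCore p K = ⊥) (P : Sylow p K) (hP : IsCyclic (P : Subgroup K)) (hR : pCore p K ≠ ⊥) :
    ((P : Subgroup K).Normal ∧ Subgroup.centralizer ((P : Subgroup K) : Set K) = (P : Subgroup K) ∧
      (∀ (_ : (P : Subgroup K).Normal), IsCyclic (K ⧸ (P : Subgroup K))) ∧ (P : Subgroup K).index ∣ p - 1) := by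
  haveI hRn : (pCore p K).Normal := H1.Nilp.pCore_normal p
  have hRp : IsPGroup p (pCore p K) := H11.Cores.pCore_isPGroup p
  have hPcomm : ∀ a ∈ (P : Subgroup K), ∀ b ∈ (P : Subgroup K), a * b = b * a := by
    intro a ha b hb
    letI := IsCyclic.commGroup (α := (P : Subgroup K))
    have := mul_comm (⟨a, ha⟩ : (P : Subgroup K)) ⟨b, hb⟩
    exact congrArg Subtype.val this
  have hRP : pCore p K ≤ P := by
    have h2 : IsPGroup p (pCore p K ⊔ (P : Subgroup K) : Subgroup K) := hRp.to_sup_of_normal_left P.isPGroup'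
    have h3 := P.is_maximal' h2 le_sup_right
    rw [← h3]; exact le_sup_left
  obtain ⟨C, hC⟩ : ∃ C, C = centralizer (pCore p K : Set K) := ⟨_, rfl⟩
  haveI hCn : C.Normal := by rw [hC]; infer_instance
  have hPC : (P : Subgroup K) ≤ C := by
    intro x hx
    rw [hC, mem_centralizer_iff]
    intro r hr
    exact hPcomm r (hRP hr) x hx
  obtain ⟨⟨r, hr⟩, hr1'⟩ := Subgroup.ne_bot_iff_exists_ne_one.1 hR
  have hr1 : r ≠ 1 := fun h => hr1' (Subtype.ext h)
  have hOC : pPrimeCore p C = ⊥ := by
    haveI : (pPrimeCore p C).Characteristic := H11.Cores.pPrimeCore_characteristic p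
    haveI h3 : ((pPrimeCore p C).map C.subtype).Normal := H11.Cores.map_subtype_normal_of_characteristic C _
    have h4 : (pPrimeCore p C).map C.subtype ≤ pPrimeCore p K := by
      apply H11.Cores.le_pPrimeCore p
      rw [Nat.card_congr ((pPrimeCore p C).equivMapOfInjective _ C.subtype_injective).toEquiv.symm]
      exact H11.Cores.pPrimeCore_coprime p
    rw [hO, le_bot_iff, Subgroup.map_eq_bot_iff_of_injective _ C.subtype_injective] at h4
    exact h4
  have htop := eq_top_of_central (P.subtype hPC) (by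
    have e := (Subgroup.subgroupOfEquivOfLe hPC)
    exact isCyclic_of_surjective e.symm e.symm.surjective) hOC (r := ⟨r, hPC (hRP hr)⟩) (by
      change (r : K) ∈ (P : Subgroup K)
      exact hRP hr) (fun h => hr1 (congrArg Subtype.val h)) (by
      intro x
      apply Subtype.ext
      have hx := x.2
      have : (x : K) ∈ centralizer (pCore p K : Set K) := hC.le hx
      exact mem_centralizer_iff.1 this r hr)
  have hCP : C = P := by
    apply le_antisymm _ hPC
    intro x hx
    have : (⟨x, hx⟩ : C) ∈ ((P.subtype hPC : Sylow p C) : Subgroup C) := by rw [htop]; trivial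
    exact this
  have hPn : (P : Subgroup K).Normal := hCP ▸ hCn
  have hcent : Subgroup.centralizer ((P : Subgroup K) : Set K) = (P : Subgroup K) := by
    apply le_antisymm
    · refine (centralizer_le hRP).trans ?_
      rw [← hC, hCP]
    · intro x hx
      rw [mem_centralizer_iff]
      intro y hy
      exact hPcomm y hy x hx
  -- the embedding of the quotient
  haveI := hPn
  have hker : (MulAut.conjNormal : K →* MulAut (P : Subgroup K)).ker = P := by
    apply le_antisymm
    · intro g hg
      rw [← hcent, mem_centralizer_iff]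
      intro x hx
      rw [MonoidHom.mem_ker] at hg
      have h1 := congrArg (fun φ : MulAut (P : Subgroup K) => ((φ ⟨x, hx⟩ : (P : Subgroup K)) : K)) hg
      simp only [MulAut.conjNormal_apply, MulAut.one_apply] at h1
      exact (mul_inv_eq_iff_eq_mul.1 h1).symm
    · intro g hg
      rw [MonoidHom.mem_ker]
      ext x
      rw [MulAut.conjNormal_apply, MulAut.one_apply, hPcomm g hg x x.2, mul_inv_cancel_right]
  haveI := hP
  obtain ⟨n, hn⟩ := IsPGroup.iff_card.1 P.isPGroup'
  have hn0 : n ≠ 0 := by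
    rintro rfl
    rw [pow_zero, Subgroup.card_eq_one] at hn
    have := hRP hr
    rw [hn, mem_bot] at this
    exact hr1 this
  let e := IsCyclic.mulAutMulEquiv (P : Subgroup K)
  have hidx : (P : Subgroup K).index ∣ p ^ (n - 1) * (p - 1) := by
    have h1 : (P : Subgroup K).index = Nat.card (MulAut.conjNormal : K →* MulAut (P : Subgroup K)).range := by
      rw [← Subgroup.index_ker, hker]
    rw [h1]
    have h2 := Subgroup.card_subgroup_dvd_card (MulAut.conjNormal : K →* MulAut (P : Subgroup K)).range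
    rwa [IsCyclic.card_mulAut, hn, Nat.totient_prime_pow hp.out (Nat.pos_of_ne_zero hn0)] at h2
  have hidx2 : (P : Subgroup K).index ∣ p - 1 := by
    refine Nat.Coprime.dvd_of_dvd_mul_left ?_ hidx
    apply Nat.Coprime.pow_right
    exact ((Nat.Prime.coprime_iff_not_dvd hp.out).2 P.not_dvd_index).symm
  refine ⟨hPn, hcent, ?_, hidx2⟩
  intro _
  by_cases h2 : p = 2
  · subst h2
    have h3 : (P : Subgroup K).index = 1 := by
      have := Nat.dvd_one.1 hidx2
      exact this
    have h4 : Nat.card (K ⧸ (P : Subgroup K)) = 1 := h3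
    have h5 := (Nat.card_eq_one_iff_unique.1 h4).1
    exact isCyclic_of_subsingleton
  · have h3 : IsCyclic (ZMod (p ^ n))ˣ := ZMod.isCyclic_units_of_prime_pow p hp.out h2 n
    have h4 : IsCyclic (MulAut (P : Subgroup K)) := by
      rw [← hn] at h3
      exact isCyclic_of_surjective e.symm e.symm.surjective
    have h5 : IsCyclic (MulAut.conjNormal : K →* MulAut (P : Subgroup K)).range := inferInstance
    have e2 := QuotientGroup.quotientKerEquivRange (MulAut.conjNormal : K →* MulAut (P : Subgroup K))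
    have h6 : IsCyclic (K ⧸ (MulAut.conjNormal : K →* MulAut (P : Subgroup K)).ker) :=
      isCyclic_of_surjective e2.symm e2.symm.surjective
    have e3 : K ⧸ (MulAut.conjNormal : K →* MulAut (P : Subgroup K)).ker ≃* K ⧸ (P : Subgroup K) :=
      QuotientGroup.quotientMulEquivOfEq hker
    exact isCyclic_of_surjective e3 e3.surjective

theorem fitting_bot (hO : pPrimeCore p K = ⊥) (hR : pCore p K = ⊥) : fittingSubgroup K = ⊥ := by
  by_contra hne
  haveI hFn : (fittingSubgroup K).Normal := H1.Nilp.fitting_normal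
  haveI hFnil : Group.IsNilpotent (fittingSubgroup K) := H1.Nilp.fitting_nilpotent
  have hc1 : Nat.card (fittingSubgroup K) ≠ 1 := fun h => hne (Subgroup.card_eq_one.1 h)
  obtain ⟨q, hq, hqd⟩ := Nat.exists_prime_and_dvd hc1
  haveI : Fact q.Prime := ⟨hq⟩
  let Q : Sylow q (fittingSubgroup K) := default
  haveI hQK : ((Q : Subgroup (fittingSubgroup K)).map (fittingSubgroup K).subtype).Normal :=
    H1.Nilp.sylow_map_normal_of_nilpotent hFn hFnil Q
  have hQq : IsPGroup q ((Q : Subgroup (fittingSubgroup K)).map (fittingSubgroup K).subtype) := Q.isPGroup'.map _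
  have hQne : (Q : Subgroup (fittingSubgroup K)).map (fittingSubgroup K).subtype ≠ ⊥ := by
    rw [Ne, Subgroup.map_eq_bot_iff_of_injective _ (fittingSubgroup K).subtype_injective]
    exact Q.ne_bot_of_dvd_card hqd
  by_cases hqp : q = p
  · subst hqp
    have := H11.Cores.le_pCore q hQq
    rw [hR, le_bot_iff] at this
    exact hQne this
  · have : (Q : Subgroup (fittingSubgroup K)).map (fittingSubgroup K).subtype ≤ pPrimeCore p K := by
      apply H11.Cores.le_pPrimeCore p
      obtain ⟨k, hk⟩ := IsPGroup.iff_card.1 hQq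
      rw [hk]
      exact Nat.Coprime.pow_left k ((Nat.coprime_primes hq hp.out).2 hqp)
    rw [hO, le_bot_iff] at this
    exact hQne this

theorem two_comp {P : Sylow p K} (hP : IsCyclic (P : Subgroup K)) {x y : K} (hx : orderOf x = p) (hy : orderOf y = p)
    (hxy : x * y = y * x) : y ∈ zpowers x := by
  classical
  have hpx : IsPGroup p (zpowers x) := IsPGroup.of_card (n := 1) (by rw [Nat.card_zpowers, hx, pow_one])
  have hpy : IsPGroup p (zpowers y) := IsPGroup.of_card (n := 1) (by rw [Nat.card_zpowers, hy, pow_one])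
  have hA : IsPGroup p (zpowers x ⊔ zpowers y : Subgroup K) := by
    apply hpx.to_sup_of_normal_right' hpy
    rw [zpowers_le]
    apply centralizer_le_normalizer
    rw [mem_centralizer_iff]
    rintro _ ⟨k, rfl⟩
    have : Commute y x := hxy.symm
    exact (this.zpow_left k).eq
  obtain ⟨Q, hQ⟩ := hA.exists_le_sylow
  have hQc : IsCyclic (Q : Subgroup K) := by
    have e := Sylow.equiv P Q
    exact isCyclic_of_surjective e e.surjective
  haveI := Fintype.ofFinite (Q : Subgroup K)
  have hxQ : x ∈ (Q : Subgroup K) := hQ (mem_sup_left (mem_zpowers x))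
  have hyQ : y ∈ (Q : Subgroup K) := hQ (mem_sup_right (mem_zpowers y))
  by_contra hcon
  have h1 := IsCyclic.card_pow_eq_one_le (α := (Q : Subgroup K)) (n := p) hp.out.pos
  let f : zpowers x → (Q : Subgroup K) := fun w => ⟨w, (zpowers_le.2 hxQ) w.2⟩
  have hf : Function.Injective f := fun a b h => by
    have h' := congrArg Subtype.val h
    exact Subtype.ext h'
  haveI := Fintype.ofFinite (zpowers x)
  have h2 : insert (⟨y, hyQ⟩ : (Q : Subgroup K)) (Finset.univ.image f) ⊆ Finset.univ.filter (fun w : (Q : Subgroup K) => w ^ p = 1) := by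
    intro w hw
    rw [Finset.mem_insert, Finset.mem_image] at hw
    rw [Finset.mem_filter]
    refine ⟨Finset.mem_univ _, ?_⟩
    rcases hw with rfl | ⟨v, -, rfl⟩
    · apply Subtype.ext
      change y ^ p = 1
      rw [← hy]; exact pow_orderOf_eq_one y
    · apply Subtype.ext
      change (v : K) ^ p = 1
      have h3 := pow_card_eq_one' (x := v)
      rw [Nat.card_zpowers, hx] at h3
      exact congrArg Subtype.val h3
  have h3 := (Finset.card_le_card h2).trans h1
  rw [Finset.card_insert_of_notMem (by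
    intro h
    rw [Finset.mem_image] at h
    obtain ⟨v, -, hv⟩ := h
    apply hcon
    have : (v : K) = y := congrArg Subtype.val hv
    rw [← this]; exact v.2), Finset.card_image_of_injective _ hf, Finset.card_univ, ← Nat.card_eq_fintype_card,
    Nat.card_zpowers, hx] at h3
  omega

theorem case_two (hpK : p ∣ Nat.card K) (hO : pPrimeCore p K = ⊥) (P : Sylow p K) (hP : IsCyclic (P : Subgroup K))
    (hR : pCore p K = ⊥) :
    (IsSimpleGroup ↥(generalizedFittingSubgroup K) ∧ ¬ IsMulCommutative ↥(generalizedFittingSubgroup K) ∧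
      ¬ p ∣ (generalizedFittingSubgroup K).index) := by
  have hF := fitting_bot hO hR
  have hFs : generalizedFittingSubgroup K = layer K := by
    rw [generalizedFittingSubgroup, hF, sup_bot_eq]
  have hK1 : Nat.card K ≠ 1 := by
    intro h
    rw [h, Nat.dvd_one] at hpK
    exact hp.out.one_lt.ne' hpK
  -- a component
  obtain ⟨L, hL⟩ : ∃ L : Subgroup K, IsComponent L := by
    by_contra hcon
    push Not at hcon
    have h1 := H11.FStar.layer_eq_bot_iff_no_component.2 hcon
    have h2 := H11.FStar.centralizer_generalizedFitting_le (G := K)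
    rw [hFs, h1] at h2
    apply hK1
    have h3 : (⊤ : Subgroup K) ≤ ⊥ := by
      refine le_trans ?_ h2
      intro x _
      rw [mem_centralizer_iff]
      intro y hy
      have : y = 1 := hy
      rw [this, one_mul, mul_one]
    rw [le_bot_iff] at h3
    rw [← Subgroup.card_top (G := K), h3, Subgroup.card_bot]
  have hcp : ∀ L : Subgroup K, IsComponent L → p ∣ Nat.card L := by
    intro L hL
    by_contra hcon
    have h1 := H11.Cores.le_pPrimeCore_of_isSubnormal p hL.1 ((Nat.Prime.coprime_iff_not_dvd hp.out).2 hcon).symm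
    rw [hO, le_bot_iff] at h1
    exact H11.Components.IsComponent.ne_bot hL h1
  have hcenter : ∀ L : Subgroup K, IsComponent L → ∀ x ∈ L, (∀ y ∈ L, y * x = x * y) → x = 1 := by
    intro L hL x hx hc
    have := H11.FStar.mem_fitting_of_mem_center hL.1 hx hc
    rwa [hF, mem_bot] at this
  have huniq : ∀ L' : Subgroup K, IsComponent L' → L' = L := by
    intro L' hL'
    by_contra hne
    have hcomm := H11.Components.commutator_eq_bot_of_ne hL' hL hne
    rw [commutator_eq_bot_iff_le_centralizer] at hcomm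
    obtain ⟨x, hx⟩ := exists_prime_orderOf_dvd_card' (G := L') p (hcp L' hL')
    obtain ⟨y, hy⟩ := exists_prime_orderOf_dvd_card' (G := L) p (hcp L hL)
    have hx' : orderOf (x : K) = p := by rw [Subgroup.orderOf_coe, hx]
    have hy' : orderOf (y : K) = p := by rw [Subgroup.orderOf_coe, hy]
    have hxy : (x : K) * y = y * x := (mem_centralizer_iff.1 (hcomm x.2) y y.2).symm
    have h1 := two_comp hP hx' hy' hxy
    have h2 : (y : K) ∈ L' := (zpowers_le.2 x.2) h1
    have h3 := hcenter L hL y y.2 (fun w hw => (mem_centralizer_iff.1 (hcomm h2) w hw))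
    rw [h3, orderOf_one] at hy'
    exact hp.out.one_lt.ne hy'
  have hlay : layer K = L := by
    apply le_antisymm
    · rw [H11.Components.layer_le_iff]
      intro L' hL'
      rw [huniq L' hL']
    · exact H11.Components.le_layer hL
  rw [hFs, hlay]
  haveI hLn : L.Normal := by
    rw [← hlay, ← hFs]
    infer_instance
  haveI hLs : IsSimpleGroup L := by
    have h1 : center L = ⊥ := by
      rw [eq_bot_iff]
      intro x hx
      rw [mem_bot]
      apply Subtype.ext
      apply hcenter L hL x x.2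
      intro y hy
      exact congrArg Subtype.val (mem_center_iff.1 hx ⟨y, hy⟩)
    have h2 := hL.2.2
    have e : L ⧸ center L ≃* L := (QuotientGroup.quotientMulEquivOfEq h1).trans QuotientGroup.quotientBot
    haveI := h2
    haveI : Nontrivial L := e.toEquiv.symm.nontrivial
    exact IsSimpleGroup.isSimpleGroup_of_surjective e.toMonoidHom e.surjective
  have hperf := H11.Components.IsComponent.perfect hL
  refine ⟨hLs, ?_, ?_⟩
  · intro hcom
    have h1 : ⁅L, L⁆ = ⊥ := Subgroup.commutator_self_eq_bot_iff.2 hcom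
    rw [hperf] at h1
    exact H11.Components.IsComponent.ne_bot hL h1
  · -- the index
    obtain ⟨X, hX⟩ : ∃ X : Subgroup K, X = L ⊔ P := ⟨_, rfl⟩
    have hLX : L ≤ X := by rw [hX]; exact le_sup_left
    have hPX : (P : Subgroup K) ≤ X := by rw [hX]; exact le_sup_right
    haveI hPc : IsCyclic (P.subtype hPX : Sylow p X) := by
      have e := (Subgroup.subgroupOfEquivOfLe hPX)
      exact isCyclic_of_surjective e.symm e.symm.surjective
    have hdich := (P.subtype hPX : Sylow p X).not_dvd_card_commutator_or_not_dvd_index_commutator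
    have h1 : L.subgroupOf X ≤ commutator X := by
      rw [_root_.commutator_def]
      have h2 : ⁅L.subgroupOf X, L.subgroupOf X⁆ = L.subgroupOf X := by
        apply Subgroup.map_injective X.subtype_injective
        rw [Subgroup.map_commutator, Subgroup.map_subgroupOf_eq_of_le hLX, hperf]
      rw [← h2]
      exact Subgroup.commutator_mono le_top le_top
    have h3 : p ∣ Nat.card (commutator X) := by
      refine (hcp L hL).trans ?_
      rw [← Nat.card_congr (Subgroup.subgroupOfEquivOfLe hLX).toEquiv]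
      exact Subgroup.card_dvd_of_le h1
    have h4 := hdich.resolve_left (not_not.2 h3)
    -- the quotient by `L`
    let f : X →* K ⧸ L := (QuotientGroup.mk' L).comp X.subtype
    have hfk : f.ker = L.subgroupOf X := by
      ext x
      rw [MonoidHom.mem_ker, mem_subgroupOf]
      exact QuotientGroup.eq_one_iff _
    have hfr : f.range ≤ (P : Subgroup K).map (QuotientGroup.mk' L) := by
      rintro _ ⟨x, rfl⟩
      have hx : (x : K) ∈ L ⊔ (P : Subgroup K) := hX.le x.2
      rw [← SetLike.mem_coe, Subgroup.normal_mul] at hx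
      obtain ⟨l, hl, y, hy, hly⟩ := hx
      refine ⟨y, hy, ?_⟩
      change (QuotientGroup.mk' L) y = (QuotientGroup.mk' L) x
      have hly' : l * y = x := hly
      rw [← hly', map_mul]
      have : (QuotientGroup.mk' L) l = 1 := (QuotientGroup.eq_one_iff l).2 hl
      rw [this, one_mul]
    have hcomm2 : commutator X ≤ L.subgroupOf X := by
      rw [_root_.commutator_def, Subgroup.commutator_le]
      intro a _ b _
      rw [← hfk, MonoidHom.mem_ker, map_commutatorElement]
      obtain ⟨a', ha', ha⟩ := hfr ⟨a, rfl⟩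
      obtain ⟨b', hb', hb⟩ := hfr ⟨b, rfl⟩
      rw [← ha, ← hb, ← map_commutatorElement]
      letI := IsCyclic.commGroup (α := (P : Subgroup K))
      have h5 : a' * b' = b' * a' := congrArg Subtype.val (mul_comm (⟨a', ha'⟩ : (P : Subgroup K)) ⟨b', hb'⟩)
      rw [commutatorElement_def, h5]
      simp
    have h6 : ¬ p ∣ (L.subgroupOf X).index := fun h => h4 (h.trans (Subgroup.index_dvd_of_le hcomm2))
    have h7 : (L.subgroupOf X).index = 1 := by
      have h8 : IsPGroup p f.range := (P.isPGroup'.map (QuotientGroup.mk' L)).to_le hfr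
      obtain ⟨k, hk⟩ := IsPGroup.iff_card.1 h8
      rw [← hfk, Subgroup.index_ker, hk] at h6 ⊢
      by_contra hk0
      apply h6
      exact dvd_pow_self p (fun h => hk0 (by rw [h, pow_zero]))
    have h8 : X ≤ L := by
      rw [Subgroup.index_eq_one] at h7
      rwa [subgroupOf_eq_top] at h7
    have h9 : (P : Subgroup K) ≤ L := hPX.trans h8
    intro hd
    exact P.not_dvd_index (hd.trans (Subgroup.index_dvd_of_le h9))

end Main

end Cfsg.Agent.H24.CycSyl
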