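import Mathlib

set_option autoImplicit false

/-! Modules over `F₂` for `3² : D₈`. -/

namespace Cfsg.Agent.H24.D8Mod

open Subgroup

structure Rel {S : Type*} [Group S] (x₁ x₂ a b z : S) : Prop where
  xx : x₂ * x₁ = x₁ * x₂
  bx1 : b * x₁ = x₂ * b
  bx2 : b * x₂ = x₁ * b
  ax1 : a * x₁ = x₁ * a
  ax2 : a * x₂ = x₂ * (x₂ * a)
  zx1 : z * x₁ = x₁ * (x₁ * z)
  zx2 : z * x₂ = x₂ * (x₂ * z)
  zb : z * b = b * z
  za : z * a = a * z
  ab : a * b = b * (a * z)
  aa : a * a = 1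
  bb : b * b = 1
  zz : z * z = 1
  x13 : x₁ * (x₁ * x₁) = 1
  x23 : x₂ * (x₂ * x₂) = 1

namespace Rel

variable {S : Type*} [Group S] {x₁ x₂ a b z : S} (h : Rel x₁ x₂ a b z)
include h

theorem xx' (w : S) : x₂ * (x₁ * w) = x₁ * (x₂ * w) := by rw [← mul_assoc, h.xx, mul_assoc]
theorem bx1' (w : S) : b * (x₁ * w) = x₂ * (b * w) := by rw [← mul_assoc, h.bx1, mul_assoc]
theorem bx2' (w : S) : b * (x₂ * w) = x₁ * (b * w) := by rw [← mul_assoc, h.bx2, mul_assoc]
theorem ax1' (w : S) : a * (x₁ * w) = x₁ * (a * w) := by rw [← mul_assoc, h.ax1, mul_assoc]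
theorem ax2' (w : S) : a * (x₂ * w) = x₂ * (x₂ * (a * w)) := by rw [← mul_assoc, h.ax2, mul_assoc, mul_assoc]
theorem zx1' (w : S) : z * (x₁ * w) = x₁ * (x₁ * (z * w)) := by rw [← mul_assoc, h.zx1, mul_assoc, mul_assoc]
theorem zx2' (w : S) : z * (x₂ * w) = x₂ * (x₂ * (z * w)) := by rw [← mul_assoc, h.zx2, mul_assoc, mul_assoc]
theorem zb' (w : S) : z * (b * w) = b * (z * w) := by rw [← mul_assoc, h.zb, mul_assoc]
theorem za' (w : S) : z * (a * w) = a * (z * w) := by rw [← mul_assoc, h.za, mul_assoc]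
theorem ab' (w : S) : a * (b * w) = b * (a * (z * w)) := by rw [← mul_assoc, h.ab, mul_assoc, mul_assoc]
theorem aa' (w : S) : a * (a * w) = w := by rw [← mul_assoc, h.aa, one_mul]
theorem bb' (w : S) : b * (b * w) = w := by rw [← mul_assoc, h.bb, one_mul]
theorem zz' (w : S) : z * (z * w) = w := by rw [← mul_assoc, h.zz, one_mul]
theorem x13' (w : S) : x₁ * (x₁ * (x₁ * w)) = w := by
  rw [← mul_assoc, ← mul_assoc, mul_assoc x₁, h.x13, one_mul]
theorem x23' (w : S) : x₂ * (x₂ * (x₂ * w)) = w := by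
  rw [← mul_assoc, ← mul_assoc, mul_assoc x₂, h.x23, one_mul]

theorem swap : Rel (x₁ * x₂) (x₁ * (x₂ * x₂)) b a z := by
  constructor <;>
  simp only [mul_assoc, h.xx, h.xx', h.bx1, h.bx1', h.bx2, h.bx2', h.ax1, h.ax1', h.ax2, h.ax2', h.zx1, h.zx1', h.zx2,
    h.zx2', h.zb, h.zb', h.za, h.za', h.ab, h.ab', h.aa, h.aa', h.bb, h.bb', h.zz, h.zz', h.x13, h.x13', h.x23, h.x23',
    mul_one]

end Rel

section mods

variable {S : Type*} [Group S] {M : Type*} [AddCommGroup M] [Module (ZMod 2) M] (ρ : Representation (ZMod 2) S M)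

theorem add_self (m : M) : m + m = 0 := by
  rw [← two_nsmul, ← Nat.cast_smul_eq_nsmul (ZMod 2)]
  have : ((2 : ℕ) : ZMod 2) = 0 := by decide
  rw [this, zero_smul]

theorem eq_of_add {m n : M} (h : m + n = 0) : m = n := by
  have h2 : m + n = n + n := by rw [h, add_self]
  exact add_right_cancel h2

theorem exists_fixed_step (T : S) (hT : T * T = 1) (m : M) (hm : m ≠ 0) : ∃ m' : M, m' ≠ 0 ∧ ρ T m' = m' ∧
    (m' = m ∨ m' = m + ρ T m) := by
  have hTT : ∀ x, ρ T (ρ T x) = x := by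
    intro x
    rw [← Module.End.mul_apply, ← map_mul, hT, map_one]; rfl
  by_cases h : m + ρ T m = 0
  · exact ⟨m, hm, (eq_of_add h).symm, Or.inl rfl⟩
  · exact ⟨m + ρ T m, h, by rw [map_add, hTT, add_comm], Or.inr rfl⟩

theorem zmod2_cases (c : ZMod 2) : c = 0 ∨ c = 1 := by revert c; decide

theorem main {x₁ x₂ a b z : S} (h : Rel x₁ x₂ a b z)
    (hgen : closure {x₁, x₂, a, b} = (⊤ : Subgroup S)) [Finite S]
    (hirr : ∀ N : Submodule (ZMod 2) M, (∀ s : S, ∀ m ∈ N, ρ s m ∈ N) → N = ⊥ ∨ N = ⊤)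
    (hC : ∀ m, ρ x₁ m = m → ρ x₂ m = m → m = 0) (v : M) (hv0 : v ≠ 0) (hv1 : ρ x₁ v = v) (hva : ρ a v = v)
    (hvz : ρ z v = v) :
    Nat.card M = 16 ∧ Nat.card {m : M // ρ b m = m ∧ ρ z m = m} = 2 ∧ Nat.card {m : M // ρ a m = m ∧ ρ z m = m} = 4 := by
  classical
  have hmul : ∀ (g h : S) (m : M), ρ g (ρ h m) = ρ (g * h) m := fun g h m => by rw [map_mul]; rfl
  have r1 : ∀ w, ρ x₁ (ρ x₂ w) = ρ x₂ (ρ x₁ w) := fun w => by rw [hmul, hmul, h.xx]
  have r2 : ∀ w, ρ x₁ (ρ b w) = ρ b (ρ x₂ w) := fun w => by rw [hmul, hmul, h.bx2]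
  have r3 : ∀ w, ρ x₂ (ρ b w) = ρ b (ρ x₁ w) := fun w => by rw [hmul, hmul, h.bx1]
  have r4 : ∀ w, ρ a (ρ x₂ w) = ρ x₂ (ρ x₂ (ρ a w)) := fun w => by rw [hmul, hmul, hmul, h.ax2, mul_assoc]
  have r5 : ∀ w, ρ z (ρ x₂ w) = ρ x₂ (ρ x₂ (ρ z w)) := fun w => by rw [hmul, hmul, hmul, h.zx2, mul_assoc]
  have r6 : ∀ w, ρ z (ρ b w) = ρ b (ρ z w) := fun w => by rw [hmul, hmul, h.zb]
  have r7 : ∀ w, ρ a (ρ b w) = ρ b (ρ a (ρ z w)) := fun w => by rw [hmul, hmul, hmul, h.ab, mul_assoc]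
  have r8 : ∀ w, ρ b (ρ b w) = w := fun w => by rw [hmul, h.bb, map_one]; rfl
  have r9 : ∀ w, ρ x₂ (ρ x₂ (ρ x₂ w)) = w := fun w => by rw [hmul, hmul, mul_assoc, h.x23, map_one]; rfl
  set f2 := ρ x₂ v with hf2
  -- `x₂² v = v + x₂ v`
  have hN : ρ x₂ f2 = v + f2 := by
    have h1 : v + f2 + ρ x₂ f2 = 0 := by
      apply hC
      · rw [map_add, map_add, hf2, r1, r1, r1, hv1]
      · rw [map_add, map_add, hf2, r9]; abel
    exact (eq_of_add h1).symm
  set f3 := ρ b v with hf3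
  set f4 := ρ b f2 with hf4
  have bf3 : ρ b f3 = v := r8 v
  have bf4 : ρ b f4 = f2 := r8 f2
  have x1f2 : ρ x₁ f2 = f2 := by rw [hf2, r1, hv1]
  have x1f3 : ρ x₁ f3 = f4 := by rw [hf3, r2]
  have x1f4 : ρ x₁ f4 = f3 + f4 := by rw [hf4, r2, hN, map_add]
  have x2f3 : ρ x₂ f3 = f3 := by rw [hf3, r3, hv1]
  have x2f4 : ρ x₂ f4 = f4 := by rw [hf4, r3, x1f2]
  have af2 : ρ a f2 = v + f2 := by rw [hf2, r4, hva, hN]
  have zf2 : ρ z f2 = v + f2 := by rw [hf2, r5, hvz, hN]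
  have af3 : ρ a f3 = f3 := by rw [hf3, r7, hvz, hva]
  have af4 : ρ a f4 = f4 := by
    rw [hf4, r7, zf2, map_add, hva, af2, ← add_assoc, add_self, zero_add]
  have zf3 : ρ z f3 = f3 := by rw [hf3, r6, hvz]
  have zf4 : ρ z f4 = f3 + f4 := by rw [hf4, r6, zf2, map_add]
  -- the coordinate map
  let φ : (ZMod 2 × ZMod 2 × ZMod 2 × ZMod 2) → M := fun t => t.1 • v + t.2.1 • f2 + t.2.2.1 • f3 + t.2.2.2 • f4
  have hφ : ∀ α β γ δ : ZMod 2, φ (α, β, γ, δ) = α • v + β • f2 + γ • f3 + δ • f4 := fun _ _ _ _ => rfl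
  have hφx1 : ∀ α β γ δ : ZMod 2, ρ x₁ (φ (α, β, γ, δ)) = φ (α, β, δ, γ + δ) := by
    intro α β γ δ
    simp only [hφ, map_add, map_smul, hv1, x1f2, x1f3, x1f4]
    module
  have hφx2 : ∀ α β γ δ : ZMod 2, ρ x₂ (φ (α, β, γ, δ)) = φ (β, α + β, γ, δ) := by
    intro α β γ δ
    simp only [hφ, map_add, map_smul, ← hf2, hN, x2f3, x2f4]
    module
  have hφa : ∀ α β γ δ : ZMod 2, ρ a (φ (α, β, γ, δ)) = φ (α + β, β, γ, δ) := by
    intro α β γ δ
    simp only [hφ, map_add, map_smul, hva, af2, af3, af4]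
    module
  have hφz : ∀ α β γ δ : ZMod 2, ρ z (φ (α, β, γ, δ)) = φ (α + β, β, γ + δ, δ) := by
    intro α β γ δ
    simp only [hφ, map_add, map_smul, hvz, zf2, zf3, zf4]
    module
  have hφb : ∀ α β γ δ : ZMod 2, ρ b (φ (α, β, γ, δ)) = φ (γ, δ, α, β) := by
    intro α β γ δ
    simp only [hφ, map_add, map_smul, ← hf3, ← hf4, bf3, bf4]
    module
  -- surjectivity
  let U : Submodule (ZMod 2) M :=
    { carrier := Set.range φ
      zero_mem' := ⟨0, by simp [φ]⟩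
      add_mem' := by
        rintro _ _ ⟨⟨α, β, γ, δ⟩, rfl⟩ ⟨⟨α', β', γ', δ'⟩, rfl⟩
        refine ⟨(α + α', β + β', γ + γ', δ + δ'), ?_⟩
        simp only [hφ]
        module
      smul_mem' := by
        rintro c _ ⟨⟨α, β, γ, δ⟩, rfl⟩
        refine ⟨(c * α, c * β, c * γ, c * δ), ?_⟩
        simp only [hφ]
        module }
  have hU : ∀ s : S, ∀ m ∈ U, ρ s m ∈ U := by
    intro s
    have hs : s ∈ closure {x₁, x₂, a, b} := by rw [hgen]; trivial
    have hfin : ∀ t : S, (∀ m ∈ U, ρ t m ∈ U) → ∀ n : ℕ, ∀ m ∈ U, ρ (t ^ n) m ∈ U := by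
      intro t ht n
      induction n with
      | zero => intro m hm; rw [pow_zero, map_one]; exact hm
      | succ n ih => intro m hm; rw [pow_succ, ← hmul]; exact ih _ (ht m hm)
    induction hs using closure_induction with
    | mem s hs =>
      rcases hs with rfl | rfl | rfl | rfl
      · rintro _ ⟨⟨α, β, γ, δ⟩, rfl⟩; exact ⟨_, (hφx1 α β γ δ).symm⟩
      · rintro _ ⟨⟨α, β, γ, δ⟩, rfl⟩; exact ⟨_, (hφx2 α β γ δ).symm⟩
      · rintro _ ⟨⟨α, β, γ, δ⟩, rfl⟩; exact ⟨_, (hφa α β γ δ).symm⟩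
      · rintro _ ⟨⟨α, β, γ, δ⟩, rfl⟩; exact ⟨_, (hφb α β γ δ).symm⟩
    | one => intro m hm; rw [map_one]; exact hm
    | mul s t _ _ hs ht => intro m hm; rw [← hmul]; exact hs _ (ht m hm)
    | inv s _ hs =>
      have : s⁻¹ = s ^ (Nat.card S - 1) := by
        rw [inv_eq_iff_mul_eq_one, ← pow_succ', Nat.sub_add_cancel Nat.card_pos, pow_card_eq_one']
      rw [this]
      exact hfin s hs _
  have hsurj : Function.Surjective φ := by
    have h1 : U = ⊤ := (hirr U hU).resolve_left (fun h => by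
      have : v ∈ U := ⟨(1, 0, 0, 0), by simp [hφ]⟩
      rw [h] at this
      exact hv0 ((Submodule.mem_bot _).1 this))
    intro m
    have : m ∈ U := by rw [h1]; trivial
    exact this
  -- injectivity
  have hindep : ∀ α β : ZMod 2, α • v + β • f2 = 0 → α = 0 ∧ β = 0 := by
    intro α β h1
    rcases zmod2_cases α with rfl | rfl <;> rcases zmod2_cases β with rfl | rfl
    · exact ⟨rfl, rfl⟩
    · exfalso
      rw [zero_smul, zero_add, one_smul] at h1
      apply hv0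
      have := r9 v
      rw [← hf2, h1, map_zero, map_zero] at this
      exact this.symm
    · exfalso
      rw [zero_smul, add_zero, one_smul] at h1
      exact hv0 h1
    · exfalso
      rw [one_smul, one_smul] at h1
      exact hv0 (hC v hv1 (eq_of_add h1).symm)
  have hker : ∀ t, φ t = 0 → t = 0 := by
    rintro ⟨α, β, γ, δ⟩ h1
    rw [hφ] at h1
    have h2 : α • v + β • f2 = γ • f3 + δ • f4 := by
      apply eq_of_add
      rw [← add_assoc]; exact h1
    have h3 : α • v + β • f2 = 0 := by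
      apply hC
      · rw [map_add, map_smul, map_smul, hv1, x1f2]
      · rw [h2, map_add, map_smul, map_smul, x2f3, x2f4]
    obtain ⟨rfl, rfl⟩ := hindep _ _ h3
    rw [zero_smul, zero_smul, add_zero, zero_add] at h1
    have h4 : γ • v + δ • f2 = 0 := by
      have := congrArg (ρ b) h1
      rwa [map_add, map_smul, map_smul, bf3, bf4, map_zero] at this
    obtain ⟨rfl, rfl⟩ := hindep _ _ h4
    rfl
  have hinj : Function.Injective φ := by
    rintro ⟨α, β, γ, δ⟩ ⟨α', β', γ', δ'⟩ h1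
    have h2 : φ (α + α', β + β', γ + γ', δ + δ') = 0 := by
      have e : φ (α + α', β + β', γ + γ', δ + δ') = φ (α, β, γ, δ) + φ (α', β', γ', δ') := by
        simp only [hφ]
        module
      rw [e, h1, add_self]
    have h3 := hker _ h2
    simp only [Prod.mk_eq_zero] at h3
    obtain ⟨h4, h5, h6, h7⟩ := h3
    have key : ∀ c d : ZMod 2, c + d = 0 → c = d := by decide
    rw [key _ _ h4, key _ _ h5, key _ _ h6, key _ _ h7]
  let e : (ZMod 2 × ZMod 2 × ZMod 2 × ZMod 2) ≃ M := Equiv.ofBijective φ ⟨hinj, hsurj⟩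
  have he : ∀ t, e t = φ t := fun _ => rfl
  refine ⟨?_, ?_, ?_⟩
  · rw [← Nat.card_congr e]
    simp only [Nat.card_prod, Nat.card_zmod]
  · have e2 : {t : ZMod 2 × ZMod 2 × ZMod 2 × ZMod 2 // (t.2.2.1, t.2.2.2, t.1, t.2.1) = t ∧ (t.1 + t.2.1, t.2.1, t.2.2.1 + t.2.2.2, t.2.2.2) = t} ≃
        {m : M // ρ b m = m ∧ ρ z m = m} := e.subtypeEquiv (by
          rintro ⟨α, β, γ, δ⟩
          rw [he, hφb, hφz]
          exact and_congr hinj.eq_iff.symm hinj.eq_iff.symm)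
    rw [← Nat.card_congr e2, Nat.card_eq_fintype_card]
    decide
  · have e2 : {t : ZMod 2 × ZMod 2 × ZMod 2 × ZMod 2 // (t.1 + t.2.1, t.2.1, t.2.2.1, t.2.2.2) = t ∧ (t.1 + t.2.1, t.2.1, t.2.2.1 + t.2.2.2, t.2.2.2) = t} ≃
        {m : M // ρ a m = m ∧ ρ z m = m} := e.subtypeEquiv (by
          rintro ⟨α, β, γ, δ⟩
          rw [he, hφa, hφz]
          exact and_congr hinj.eq_iff.symm hinj.eq_iff.symm)
    rw [← Nat.card_congr e2, Nat.card_eq_fintype_card]
    decide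

theorem fixv {x₁ x₂ a b z : S} (h : Rel x₁ x₂ a b z) (v : M) (hv0 : v ≠ 0) (hv1 : ρ x₁ v = v) :
    ∃ v' : M, v' ≠ 0 ∧ ρ x₁ v' = v' ∧ ρ a v' = v' ∧ ρ z v' = v' := by
  have hmul : ∀ (g h : S) (m : M), ρ g (ρ h m) = ρ (g * h) m := fun g h m => by rw [map_mul]; rfl
  obtain ⟨w, hw0, hwa, hw⟩ := exists_fixed_step ρ a h.aa v hv0
  have hw1 : ρ x₁ w = w := by
    have e1 : ρ x₁ (ρ a v) = ρ a v := by
      rw [hmul, ← h.ax1, ← hmul, hv1]
    rcases hw with rfl | rfl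
    · exact hv1
    · rw [map_add, hv1, e1]
  obtain ⟨u, hu0, huz, hu⟩ := exists_fixed_step ρ z h.zz w hw0
  refine ⟨u, hu0, ?_, ?_, huz⟩
  · have e0 : x₁ * z = z * (x₁ * x₁) := by
      rw [h.zx1', h.zx1, h.x13']
    have e1 : ρ x₁ (ρ z w) = ρ z w := by
      rw [hmul, e0, ← hmul, ← hmul, hw1, hw1]
    rcases hu with rfl | rfl
    · exact hw1
    · rw [map_add, hw1, e1]
  · have e1 : ρ a (ρ z w) = ρ z w := by
      rw [hmul, ← h.za, ← hmul, hwa]
    rcases hu with rfl | rfl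
    · exact hwa
    · rw [map_add, hwa, e1]

theorem norm_fixed (x : S) (h3 : x * (x * x) = 1) (m : M) : ρ x (m + ρ x m + ρ x (ρ x m)) = m + ρ x m + ρ x (ρ x m) := by
  have hmul : ∀ (g h : S) (m : M), ρ g (ρ h m) = ρ (g * h) m := fun g h m => by rw [map_mul]; rfl
  have : ρ x (ρ x (ρ x m)) = m := by rw [hmul, hmul, mul_assoc, h3, map_one]; rfl
  rw [map_add, map_add, this]; abel

theorem exists_v {x₁ x₂ a b z : S} (h : Rel x₁ x₂ a b z) [Nontrivial M] :
    (∃ v : M, v ≠ 0 ∧ ρ x₁ v = v) ∨ (∃ v : M, v ≠ 0 ∧ ρ (x₁ * x₂) v = v) := by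
  by_contra hcon
  push Not at hcon
  obtain ⟨c1, c3⟩ := hcon
  have hmul : ∀ (g h : S) (m : M), ρ g (ρ h m) = ρ (g * h) m := fun g h m => by rw [map_mul]; rfl
  have hbb : ∀ m : M, ρ b (ρ b m) = m := fun m => by rw [hmul, h.bb, map_one]; rfl
  have haa : ∀ m : M, ρ a (ρ a m) = m := fun m => by rw [hmul, h.aa, map_one]; rfl
  have z1 : ∀ v : M, ρ x₁ v = v → v = 0 := fun v hv => by
    by_contra h0
    exact c1 v h0 hv
  have z3 : ∀ v : M, ρ (x₁ * x₂) v = v → v = 0 := fun v hv => by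
    by_contra h0
    exact c3 v h0 hv
  have z2 : ∀ v : M, ρ x₂ v = v → v = 0 := fun v hv => by
    have h1 : ρ b v = 0 := z1 _ (by rw [hmul, ← h.bx2, ← hmul, hv])
    rw [← hbb v, h1, map_zero]
  have z4 : ∀ v : M, ρ (x₁ * (x₂ * x₂)) v = v → v = 0 := fun v hv => by
    have h1 : ρ a v = 0 := z3 _ (by rw [hmul, ← h.swap.bx2, ← hmul, hv])
    rw [← haa v, h1, map_zero]
  obtain ⟨m, hm⟩ := exists_ne (0 : M)
  apply hm
  have n1 : ∀ m : M, ρ x₁ (ρ x₁ m) = m + ρ x₁ m := fun m => (eq_of_add (z1 _ (norm_fixed ρ x₁ h.x13 m))).symm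
  have n2 : ∀ m : M, ρ x₂ (ρ x₂ m) = m + ρ x₂ m := fun m => (eq_of_add (z2 _ (norm_fixed ρ x₂ h.x23 m))).symm
  have n3 := z3 _ (norm_fixed ρ (x₁ * x₂) h.swap.x13 m)
  have n4 := z4 _ (norm_fixed ρ (x₁ * (x₂ * x₂)) h.swap.x23 m)
  have r1 : ∀ w, ρ x₂ (ρ x₁ w) = ρ x₁ (ρ x₂ w) := fun w => by rw [hmul, hmul, h.xx]
  simp only [← hmul, n1, n2, map_add, r1] at n3 n4
  have e3 : ρ x₁ m + ρ x₂ m = 0 := by
    have := n3
    calc ρ x₁ m + ρ x₂ m = (ρ x₁ m + ρ x₂ m) + (m + m) + (ρ x₁ (ρ x₂ m) + ρ x₁ (ρ x₂ m)) := by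
          rw [add_self, add_self]; abel
      _ = 0 := by rw [← this]; abel
  calc m = m + (ρ x₁ m + ρ x₂ m) := by rw [e3, add_zero]
    _ = (m + (ρ x₁ m + ρ x₁ (ρ x₂ m)) + (m + ρ x₁ m + (ρ x₂ m + ρ x₁ (ρ x₂ m)) +
          (ρ x₂ m + ρ x₁ (ρ x₂ m) + (m + ρ x₁ m + (ρ x₂ m + ρ x₁ (ρ x₂ m)))))) -
          ((m + ρ x₁ m + ρ x₂ m + ρ x₁ (ρ x₂ m) + ρ x₁ (ρ x₂ m)) + (m + ρ x₁ m + ρ x₂ m + ρ x₁ (ρ x₂ m) + ρ x₁ (ρ x₂ m))) := by
        abel
    _ = 0 := by rw [n4, add_self, sub_zero]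

end mods

section grp

variable {S : Type*} [Group S] [Finite S]

theorem mem_three {D : Subgroup S} (hD : Nat.card D = 3) {u x : S} (hu : u ∈ D) (hu1 : u ≠ 1) (hx : x ∈ D) :
    x = 1 ∨ x = u ∨ x = u⁻¹ := by
  have hou : orderOf u = 3 := by
    have h1 : orderOf u ∣ 3 := by rw [← hD]; exact Subgroup.orderOf_dvd_natCard D hu
    rcases (Nat.dvd_prime Nat.prime_three).1 h1 with h | h
    · exact absurd (orderOf_eq_one_iff.1 h) hu1
    · exact h
  have hz : zpowers u = D := by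
    apply Subgroup.eq_of_le_of_card_ge
    · rw [zpowers_le]; exact hu
    · rw [hD, Nat.card_zpowers, hou]
  rw [← hz] at hx
  classical
  rw [mem_zpowers_iff_mem_range_orderOf, Finset.mem_image] at hx
  obtain ⟨k, hk, rfl⟩ := hx
  rw [Finset.mem_range, hou] at hk
  interval_cases k
  · exact Or.inl (pow_zero u)
  · exact Or.inr (Or.inl (pow_one u))
  · right; right
    rw [eq_inv_iff_mul_eq_one, ← pow_succ]
    have h9 := pow_orderOf_eq_one u
    rwa [hou] at h9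

theorem exists_rel (A : Subgroup S) [A.Normal] (hAc : ∀ x ∈ A, ∀ y ∈ A, x * y = y * x) (hA3 : ∀ x ∈ A, x ^ 3 = 1)
    (hA9 : Nat.card A = 9) (hAC : Subgroup.centralizer (A : Set S) = A) (a b z : S) (haa : a * a = 1) (hbb : b * b = 1)
    (hzz : z * z = 1) (hza : z * a = a * z) (hzb : z * b = b * z) (hab : a * b = b * (a * z)) (hz1 : z ≠ 1) :
    ∃ x₁ x₂ : S, Rel x₁ x₂ a b z ∧ closure {x₁, x₂} = A := by
  classical
  let c : S →* MulAut S := MulAut.conj
  have hcA : ∀ t x, x ∈ A → c t x ∈ A := fun t x hx => Subgroup.Normal.conj_mem inferInstance x hx t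
  have hcc : ∀ s t x, c s (c t x) = c (s * t) x := fun s t x => by rw [map_mul]; rfl
  have hc1 : ∀ x, c 1 x = x := fun x => by rw [map_one]; rfl
  have hca : ∀ x, c a (c a x) = x := fun x => by rw [hcc, haa, hc1]
  have hcb : ∀ x, c b (c b x) = x := fun x => by rw [hcc, hbb, hc1]
  have sq1 : ∀ x ∈ A, x = x⁻¹ → x = 1 := by
    intro x hx h
    have h1 := hA3 x hx
    have h2 : x * x = 1 := by nth_rewrite 2 [h]; exact mul_inv_cancel x
    rwa [pow_succ, pow_two, h2, one_mul] at h1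
  have hcent : ∀ t, t * t = 1 → (∀ x ∈ A, c t x = x) → t = 1 := by
    intro t ht h
    have h1 : t ∈ centralizer (A : Set S) := by
      rw [mem_centralizer_iff]
      intro x hx
      have := h x hx
      change t * x * t⁻¹ = x at this
      exact (mul_inv_eq_iff_eq_mul.1 this).symm
    rw [hAC] at h1
    have h2 := hA3 t h1
    rwa [pow_succ, pow_two, ht, one_mul] at h2
  have ha1 : a ≠ 1 := by
    rintro rfl
    rw [one_mul, one_mul] at hab
    exact hz1 (left_eq_mul.1 hab)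
  -- subgroups of `A`
  have hbig : ∀ D : Subgroup S, D ≤ A → ∀ f ∈ D, ∀ g ∈ D, f ≠ 1 → g ≠ 1 → g ≠ f → g ≠ f⁻¹ → D = A := by
    intro D hD f hf g hg hf1 hg1 hgf hgf'
    have h1 : Nat.card D ∣ 3 ^ 2 := by
      have := Subgroup.card_dvd_of_le hD
      rwa [hA9] at this
    obtain ⟨m, hm, hm2⟩ := (Nat.dvd_prime_pow Nat.prime_three).1 h1
    interval_cases m
    · rw [pow_zero, Subgroup.card_eq_one] at hm2
      rw [hm2, mem_bot] at hf
      exact absurd hf hf1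
    · rw [pow_one] at hm2
      rcases mem_three hm2 hf hf1 hg with h | h | h
      · exact absurd h hg1
      · exact absurd h hgf
      · exact absurd h hgf'
    · exact Subgroup.eq_of_le_of_card_ge hD (by rw [hA9, hm2]; norm_num)
  have hthree : ∀ D : Subgroup S, D ≤ A → D ≠ A → ∀ f ∈ D, f ≠ 1 → Nat.card D = 3 := by
    intro D hD hne f hf hf1
    have h1 : Nat.card D ∣ 3 ^ 2 := by
      have := Subgroup.card_dvd_of_le hD
      rwa [hA9] at this
    obtain ⟨m, hm, hm2⟩ := (Nat.dvd_prime_pow Nat.prime_three).1 h1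
    interval_cases m
    · rw [pow_zero, Subgroup.card_eq_one] at hm2
      rw [hm2, mem_bot] at hf
      exact absurd hf hf1
    · rw [hm2, pow_one]
    · exact absurd (Subgroup.eq_of_le_of_card_ge hD (by rw [hA9, hm2]; norm_num)) hne
  have hfix : ∀ t, t * t = 1 → ∀ f ∈ A, ∀ g ∈ A, f ≠ 1 → g ≠ 1 → g ≠ f → g ≠ f⁻¹ → c t f = f → c t g = g → t = 1 := by
    intro t ht f hf g hg hf1 hg1 hgf hgf' hcf hcg
    have h1 : A ⊓ centralizer {t} = A := by
      refine hbig _ inf_le_left f ⟨hf, ?_⟩ g ⟨hg, ?_⟩ hf1 hg1 hgf hgf'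
      · exact mem_centralizer_singleton_iff.2 (mul_inv_eq_iff_eq_mul.1 hcf).symm
      · exact mem_centralizer_singleton_iff.2 (mul_inv_eq_iff_eq_mul.1 hcg).symm
    apply hcent t ht
    intro x hx
    rw [← h1] at hx
    have := mem_centralizer_singleton_iff.1 hx.2
    change t * x * t⁻¹ = x
    rw [← this, mul_inv_cancel_right]
  -- `F` and `I`
  let F : Subgroup S := A ⊓ ((c a : MulAut S).toMonoidHom).eqLocus (MonoidHom.id S)
  have hF : ∀ x, x ∈ F ↔ x ∈ A ∧ c a x = x := fun x => Iff.rfl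
  let I : Subgroup S :=
    { carrier := {x | x ∈ A ∧ c a x = x⁻¹}
      one_mem' := ⟨one_mem _, by rw [map_one, inv_one]⟩
      mul_mem' := fun {x y} hx hy => ⟨mul_mem hx.1 hy.1, by
        rw [map_mul, hx.2, hy.2, mul_inv_rev, hAc _ (inv_mem hx.1) _ (inv_mem hy.1)]⟩
      inv_mem' := fun {x} hx => ⟨inv_mem hx.1, by rw [map_inv, hx.2]⟩ }
  have hI : ∀ x, x ∈ I ↔ x ∈ A ∧ c a x = x⁻¹ := fun x => Iff.rfl
  have hdis : ∀ x, x ∈ F → x ∈ I → x = 1 := fun x h1 h2 => sq1 x h1.1 (by rw [← h2.2]; exact h1.2.symm)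
  obtain ⟨u, huI, hu1⟩ : ∃ u ∈ I, u ≠ 1 := by
    by_contra hcon
    push Not at hcon
    apply ha1
    apply hcent a haa
    intro x hx
    have h1 : x⁻¹ * c a x ∈ I := ⟨mul_mem (inv_mem hx) (hcA a x hx), by
      rw [map_mul, map_inv, hca, mul_inv_rev, inv_inv]⟩
    have h2 := hcon _ h1
    rw [inv_mul_eq_one] at h2
    exact h2.symm
  obtain ⟨f, hfF, hf1⟩ : ∃ f ∈ F, f ≠ 1 := by
    by_contra hcon
    push Not at hcon
    have h0 : ∀ x ∈ A, c a x = x⁻¹ := by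
      intro x hx
      have h1 : x * c a x ∈ F := ⟨mul_mem hx (hcA a x hx), by
        change c a (x * c a x) = x * c a x
        rw [map_mul, hca, hAc _ (hcA a x hx) _ hx]⟩
      have h2 := hcon _ h1
      rw [mul_eq_one_iff_inv_eq] at h2
      exact h2.symm
    apply hz1
    apply hcent z hzz
    intro x hx
    have e1 : z = a * b * (a * b) := by
      calc z = z * (b * (a * a) * b) := by rw [haa, mul_one, hbb, mul_one]
        _ = (z * b) * (a * a * b) := by simp only [mul_assoc]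
        _ = b * (z * a) * (a * b) := by rw [hzb]; simp only [mul_assoc]
        _ = b * (a * z) * (a * b) := by rw [hza]
        _ = a * b * (a * b) := by rw [hab]
    rw [e1, ← hcc, ← hcc, ← hcc, h0 _ (hcA b x hx), map_inv, hcb, h0 _ (inv_mem hx), inv_inv]
  have huA := huI.1
  have hfA := hfF.1
  have hcf : c a f = f := hfF.2
  have hcu : c a u = u⁻¹ := huI.2
  have huF : u ∉ F := fun h => hu1 (hdis u h huI)
  have hfI : f ∉ I := fun h => hf1 (hdis f hfF h)
  have hFle : F ≤ A := inf_le_left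
  have hIle : I ≤ A := fun x hx => hx.1
  have cF : Nat.card F = 3 := hthree F hFle (fun h => huF (by rw [h]; exact huA)) f hfF hf1
  have cI : Nat.card I = 3 := hthree I hIle (fun h => hfI (by rw [h]; exact hfA)) u huI hu1
  have huf : u ≠ f := fun h => huF (by rw [h]; exact hfF)
  have huf' : u ≠ f⁻¹ := fun h => huF (by rw [h]; exact inv_mem hfF)
  have haz : c (a * z) = c a * c z := map_mul c a z
  have haa' : (a * z) * (a * z) = 1 := by
    rw [mul_assoc, ← mul_assoc z a z, hza, mul_assoc a z z, hzz, mul_one, haa]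
  have ha'com : ∀ x, c a (c (a * z) x) = c (a * z) (c a x) := by
    intro x
    rw [hcc, hcc]
    congr 2
    rw [mul_assoc, hza]
  have hbab : ∀ x, c b (c a (c b x)) = c (a * z) x := by
    intro x
    rw [hcc, hcc]
    congr 2
    rw [mul_assoc b a b, hab, ← mul_assoc, hbb, one_mul]
  -- `a' = a z` preserves `F` and `I`
  have h1 : c (a * z) f ∈ F := ⟨hcA _ _ hfA, by
    change c a (c (a * z) f) = c (a * z) f
    rw [ha'com, hcf]⟩
  have h2 : c (a * z) u ∈ I := ⟨hcA _ _ huA, by rw [ha'com, hcu, map_inv]⟩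
  have hne1 : ∀ t x, x ≠ 1 → c t x ≠ 1 := by
    intro t x hx h
    exact hx ((MulEquiv.map_eq_one_iff (c t)).1 h)
  have key : c (a * z) f = f⁻¹ := by
    rcases mem_three cF hfF hf1 h1 with h | h | h
    · exact absurd h (hne1 _ _ hf1)
    · exfalso
      rcases mem_three cI huI hu1 h2 with h' | h' | h'
      · exact absurd h' (hne1 _ _ hu1)
      · have h3 := hfix (a * z) haa' f hfA u huA hf1 hu1 huf huf' h h'
        -- then `a = 1`
        apply ha1
        have h4 : b * a * b = a * z := by rw [mul_assoc, hab, ← mul_assoc, hbb, one_mul]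
        rw [h3] at h4
        calc a = (b * b) * a * (b * b) := by rw [hbb, one_mul, mul_one]
          _ = b * (b * a * b) * b := by simp only [mul_assoc]
          _ = 1 := by rw [h4, mul_one, hbb]
      · -- `z` centralizes `A`
        have hz : ∀ x, c z x = c a (c (a * z) x) := by
          intro x
          rw [hcc, ← mul_assoc, haa, one_mul]
        apply hz1
        refine hfix z hzz f hfA u huA hf1 hu1 huf huf' ?_ ?_
        · rw [hz, h, hcf]
        · rw [hz, h', map_inv, hcu, inv_inv]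
    · exact h
  -- `x₂ = b f b`
  have hg : c a (c b f) = (c b f)⁻¹ := by
    have h3 := hbab f
    rw [key] at h3
    have h4 := congrArg (c b) h3
    rw [hcb, map_inv] at h4
    exact h4
  have hzf : ∀ x, c z x = c a (c (a * z) x) := by
    intro x
    rw [hcc, ← mul_assoc, haa, one_mul]
  have hzf1 : c z f = f⁻¹ := by rw [hzf, key, map_inv, hcf]
  have hzg : c z (c b f) = (c b f)⁻¹ := by
    rw [hcc, hzb, ← hcc, hzf1, map_inv]
  have hgA : c b f ∈ A := hcA b f hfA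
  have hg1 : c b f ≠ 1 := hne1 b f hf1
  have hgF : c b f ∉ F := fun h => hg1 (sq1 _ hgA (by rw [← hg]; exact h.2.symm))
  have inv2 : ∀ x ∈ A, x⁻¹ = x * x := by
    intro x hx
    rw [inv_eq_iff_mul_eq_one, ← mul_assoc]
    have := hA3 x hx
    rwa [pow_succ, pow_two] at this
  have toM : ∀ t x y, c t x = y → t * x = y * t := fun t x y h => mul_inv_eq_iff_eq_mul.1 h
  refine ⟨f, c b f, ⟨hAc _ hgA _ hfA, toM b f _ rfl, toM b _ _ (hcb f), toM a f _ hcf, ?_, ?_, ?_, hzb, hza, hab, haa,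
    hbb, hzz, ?_, ?_⟩, ?_⟩
  · rw [toM a _ _ hg, inv2 _ hgA, mul_assoc]
  · rw [toM z _ _ hzf1, inv2 _ hfA, mul_assoc]
  · rw [toM z _ _ hzg, inv2 _ hgA, mul_assoc]
  · have := hA3 f hfA
    rwa [pow_succ, pow_two, mul_assoc] at this
  · have := hA3 _ hgA
    rwa [pow_succ, pow_two, mul_assoc] at this
  · refine hbig _ ?_ f (subset_closure (Or.inl rfl)) (c b f) (subset_closure (Or.inr rfl)) hf1 hg1 ?_ ?_
    · rw [closure_le]
      rintro x (rfl | rfl)
      · exact hfA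
      · exact hgA
    · intro h; exact hgF (by rw [h]; exact hfF)
    · intro h; exact hgF (by rw [h]; exact inv_mem hfF)

end grp

section dih

open DihedralGroup

def Da : Subgroup (DihedralGroup 4) where
  carrier := {g | g = 1 ∨ g = r 2 ∨ g = sr 0 ∨ g = sr 2}
  one_mem' := Or.inl rfl
  mul_mem' := by
    intro g h hg hh
    revert g h
    decide
  inv_mem' := by
    intro g hg
    revert g
    decide

def Db : Subgroup (DihedralGroup 4) where
  carrier := {g | g = 1 ∨ g = r 2 ∨ g = sr 1 ∨ g = sr 3}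
  one_mem' := Or.inl rfl
  mul_mem' := by
    intro g h hg hh
    revert g h
    decide
  inv_mem' := by
    intro g hg
    revert g
    decide

theorem mem_Da {g : DihedralGroup 4} : g ∈ Da ↔ g = 1 ∨ g = r 2 ∨ g = sr 0 ∨ g = sr 2 := Iff.rfl
theorem mem_Db {g : DihedralGroup 4} : g ∈ Db ↔ g = 1 ∨ g = r 2 ∨ g = sr 1 ∨ g = sr 3 := Iff.rfl

theorem card_Da : Nat.card Da = 4 := by
  change Nat.card {g : DihedralGroup 4 // g = 1 ∨ g = r 2 ∨ g = sr 0 ∨ g = sr 2} = 4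
  rw [Nat.card_eq_fintype_card]
  decide

theorem card_Db : Nat.card Db = 4 := by
  change Nat.card {g : DihedralGroup 4 // g = 1 ∨ g = r 2 ∨ g = sr 1 ∨ g = sr 3} = 4
  rw [Nat.card_eq_fintype_card]
  decide

theorem Da_ne_Db : Da ≠ Db := by
  intro h
  have h1 : (sr 0 : DihedralGroup 4) ∈ Da := Or.inr (Or.inr (Or.inl rfl))
  rw [h, mem_Db] at h1
  revert h1
  decide

theorem eq_Da_or (B : Subgroup (DihedralGroup 4)) (hB : Nat.card B = 4) (h2 : ∀ g ∈ B, g ^ 2 = 1) : B = Da ∨ B = Db := by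
  by_cases h : ∃ g ∈ B, g = sr 0 ∨ g = sr 2
  · left
    obtain ⟨g, hg, hg2⟩ := h
    apply Subgroup.eq_of_le_of_card_ge
    · intro k hk
      rw [mem_Da]
      have h3 := h2 k hk
      have h4 := h2 (g * k) (mul_mem hg hk)
      clear hg hk
      revert g k
      decide
    · rw [hB, card_Da]
  · right
    push Not at h
    apply Subgroup.eq_of_le_of_card_ge
    · intro k hk
      rw [mem_Db]
      have h3 := h2 k hk
      have h4 := h k hk
      clear hk
      revert k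
      decide
    · rw [hB, card_Db]

theorem mem_closure_ab (g : DihedralGroup 4) : g ∈ closure {(sr 0 : DihedralGroup 4), sr 1} := by
  have h0 : (sr 0 : DihedralGroup 4) ∈ closure {(sr 0 : DihedralGroup 4), sr 1} := subset_closure (Or.inl rfl)
  have h1 : (sr 1 : DihedralGroup 4) ∈ closure {(sr 0 : DihedralGroup 4), sr 1} := subset_closure (Or.inr rfl)
  rcases g with i | i
  · have : (r i : DihedralGroup 4) = (sr 0 * sr 1) ^ i.val := by revert i; decide
    rw [this]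
    exact pow_mem (mul_mem h0 h1) _
  · have : (sr i : DihedralGroup 4) = sr 0 * (sr 0 * sr 1) ^ i.val := by revert i; decide
    rw [this]
    exact mul_mem h0 (pow_mem (mul_mem h0 h1) _)

end dih

end Cfsg.Agent.H24.D8Mod
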