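import Mathlib

set_option autoImplicit false

/-! Derived length of linear `p`-groups in characteristic `≠ p`. -/

namespace Cfsg.Agent.H24.DLen

open Module
open scoped commutatorElement TensorProduct

universe u v w

section glue
variable {E : Type*} [Field E] {W : Type*} [AddCommGroup W] [Module E W]

/-- an element of `p`-power order acting trivially on an invariant subspace and its quotient -/
theorem glue {p : ℕ} (hpE : (p : E) ≠ 0) (T : Module.End E W) (k : ℕ) (hT : T ^ (p ^ k) = 1) (U : Submodule E W)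
    (h1 : ∀ x ∈ U, T x = x) (h2 : ∀ x, T x - x ∈ U) : T = 1 := by
  set N : Module.End E W := T - 1 with hN
  have hNN : N * N = 0 := by
    ext x
    have h3 : N x ∈ U := by
      have := h2 x
      rw [hN]; exact this
    change N (N x) = 0
    have h4 := h1 _ h3
    rw [hN] at h4 ⊢
    change T ((T - 1) x) - (T - 1) x = 0
    rw [h4, sub_self]
  have hTN : T = 1 + N := by rw [hN]; abel
  have hpow : ∀ m : ℕ, (1 + N) ^ m = 1 + (m : Module.End E W) * N := by
    intro m
    induction m with
    | zero => simp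
    | succ m ih =>
      rw [pow_succ, ih, add_mul, one_mul, mul_add, mul_one, mul_assoc, hNN, mul_zero, add_zero]
      push_cast
      rw [add_mul, one_mul]; abel
  have h5 := hpow (p ^ k)
  rw [← hTN, hT] at h5
  have h6 : ((p ^ k : ℕ) : Module.End E W) * N = 0 := by
    have := h5.symm
    rwa [add_eq_left] at this
  have h7 : N = 0 := by
    ext x
    have h8 := LinearMap.congr_fun h6 x
    have h9 : ((p ^ k : ℕ) : E) • N x = 0 := by
      rw [Nat.cast_smul_eq_nsmul]
      have e : (((p ^ k : ℕ) : Module.End E W) * N) x = (p ^ k) • N x := by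
        rw [← nsmul_eq_mul]; rfl
      rw [← e]; exact h8
    have h10 : ((p ^ k : ℕ) : E) ≠ 0 := by push_cast; exact pow_ne_zero _ hpE
    exact (smul_eq_zero.1 h9).resolve_left h10
  rw [hTN, h7, add_zero]

end glue

variable {P : Type u} [Group P]

/-- the representation on an invariant subspace -/
def subRep {E : Type*} [Field E] {W : Type*} [AddCommGroup W] [Module E W] (ρ : P →* Module.End E W)
    (U : Submodule E W) (hU : ∀ g, ∀ x ∈ U, ρ g x ∈ U) : P →* Module.End E U where
  toFun g := (ρ g).restrict (hU g)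
  map_one' := by ext x; simp [LinearMap.restrict_apply]
  map_mul' g h := by ext x; simp [LinearMap.restrict_apply]

theorem subRep_apply {E : Type*} [Field E] {W : Type*} [AddCommGroup W] [Module E W] (ρ : P →* Module.End E W)
    (U : Submodule E W) (hU : ∀ g, ∀ x ∈ U, ρ g x ∈ U) (g : P) (x : U) :
    ((subRep ρ U hU g x : U) : W) = ρ g x := rfl

/-- the representation on the quotient by an invariant subspace -/
def quoRep {E : Type*} [Field E] {W : Type*} [AddCommGroup W] [Module E W] (ρ : P →* Module.End E W)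
    (U : Submodule E W) (hU : ∀ g, ∀ x ∈ U, ρ g x ∈ U) : P →* Module.End E (W ⧸ U) where
  toFun g := U.mapQ U (ρ g) (hU g)
  map_one' := by
    ext x
    simp
  map_mul' g h := by
    ext x
    simp

theorem quoRep_mk {E : Type*} [Field E] {W : Type*} [AddCommGroup W] [Module E W] (ρ : P →* Module.End E W)
    (U : Submodule E W) (hU : ∀ g, ∀ x ∈ U, ρ g x ∈ U) (g : P) (x : W) :
    quoRep ρ U hU g (U.mkQ x) = U.mkQ (ρ g x) := rfl

theorem derived_succ_le_map (C : Subgroup P) (hC : commutator P ≤ C) (n : ℕ) :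
    derivedSeries P (n + 1) ≤ (derivedSeries C n).map C.subtype := by
  induction n with
  | zero =>
    rw [derivedSeries_zero, zero_add, derivedSeries_one, ← MonoidHom.range_eq_map, Subgroup.range_subtype]
    exact hC
  | succ n ih =>
    rw [derivedSeries_succ, derivedSeries_succ (G := C), Subgroup.map_commutator]
    exact Subgroup.commutator_mono ih ih

theorem reduce {p : ℕ} {E : Type*} [Field E] (hpE : (p : E) ≠ 0) {W : Type*} [AddCommGroup W] [Module E W]
    (hP : IsPGroup p P) (ρ : P →* Module.End E W) (U : Submodule E W) (hU : ∀ g, ∀ x ∈ U, ρ g x ∈ U) (g : P)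
    (h1 : subRep ρ U hU g = 1) (h2 : quoRep ρ U hU g = 1) : ρ g = 1 := by
  obtain ⟨k, hk⟩ := hP g
  refine glue hpE (ρ g) k (by rw [← map_pow, hk, map_one]) U ?_ ?_
  · intro x hx
    have h3 := LinearMap.congr_fun h1 ⟨x, hx⟩
    exact congrArg Subtype.val h3
  · intro x
    have h3 := LinearMap.congr_fun h2 (U.mkQ x)
    rw [quoRep_mk] at h3
    exact (Submodule.Quotient.eq U).1 h3

theorem ac {p : ℕ} [hp : Fact p.Prime] {E : Type v} [Field E] [IsAlgClosed E] (hpE : (p : E) ≠ 0) (n : ℕ) :
    ∀ (P : Type u) [Group P] [Finite P] (_ : IsPGroup p P) (W : Type w) [AddCommGroup W] [Module E W]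
      [FiniteDimensional E W] (ρ : P →* Module.End E W), finrank E W = n →
      ∀ g ∈ derivedSeries P (Nat.log 2 n + 1), ρ g = 1 := by
  induction n using Nat.strong_induction_on with
  | _ n ih =>
  intro P _ _ hP W _ _ _ ρ hn g hg
  by_cases hirr : ∀ U : Submodule E W, (∀ g, ∀ x ∈ U, ρ g x ∈ U) → U = ⊥ ∨ U = ⊤
  swap
  · push Not at hirr
    obtain ⟨U, hU, hU1, hU2⟩ := hirr
    have hd1 : finrank E U < n := by rw [← hn]; exact Submodule.finrank_lt hU2
    have hd2 : finrank E (W ⧸ U) < n := by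
      have h1 := Submodule.finrank_quotient_add_finrank U
      have h2 : 0 < finrank E U := by
        rw [finrank_pos_iff]
        exact Submodule.nontrivial_iff_ne_bot.2 hU1
      omega
    have mono : ∀ m, m < n → derivedSeries P (Nat.log 2 n + 1) ≤ derivedSeries P (Nat.log 2 m + 1) := by
      intro m hm
      exact derivedSeries_antitone _ (by have := Nat.log_mono_right (b := 2) hm.le; omega)
    exact reduce hpE hP ρ U hU g (ih _ hd1 P hP U (subRep ρ U hU) rfl g (mono _ hd1 hg))
      (ih _ hd2 P hP (W ⧸ U) (quoRep ρ U hU) rfl g (mono _ hd2 hg))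
  -- irreducible case
  by_cases hW : Subsingleton W
  · exact LinearMap.ext (fun x => Subsingleton.elim _ _)
  haveI hWn : Nontrivial W := not_subsingleton_iff_nontrivial.1 hW
  have schur : ∀ T : Module.End E W, (∀ g, ρ g * T = T * ρ g) → ∃ c : E, T = c • 1 := by
    intro T hT
    obtain ⟨c, hc⟩ := Module.End.exists_eigenvalue T
    refine ⟨c, ?_⟩
    have h1 : ∀ g, ∀ x ∈ Module.End.eigenspace T c, ρ g x ∈ Module.End.eigenspace T c := by
      intro g x hx
      rw [Module.End.mem_eigenspace_iff] at hx ⊢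
      have := LinearMap.congr_fun (hT g) x
      change ρ g (T x) = T (ρ g x) at this
      rw [← this, hx, map_smul]
    rcases hirr _ h1 with h | h
    · exact absurd h hc
    · ext x
      have : x ∈ Module.End.eigenspace T c := by rw [h]; trivial
      rw [Module.End.mem_eigenspace_iff] at this
      exact this
  have hρinv : ∀ g, ρ g * ρ g⁻¹ = 1 := fun g => by rw [← map_mul, mul_inv_cancel, map_one]
  have hρinv' : ∀ g, ρ g⁻¹ * ρ g = 1 := fun g => by rw [← map_mul, inv_mul_cancel, map_one]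
  -- `Z₁` : elements acting as scalars
  let Z₁ : Subgroup P :=
    { carrier := {z | ∀ g, ρ g * ρ z = ρ z * ρ g}
      one_mem' := fun g => by rw [map_one, mul_one, one_mul]
      mul_mem' := fun {a b} ha hb g => by
        rw [map_mul, ← mul_assoc, ha g, mul_assoc, hb g, mul_assoc]
      inv_mem' := fun {a} ha g => by
        have h1 := ha g
        calc ρ g * ρ a⁻¹ = (ρ a⁻¹ * ρ a) * (ρ g * ρ a⁻¹) := by rw [hρinv', one_mul]
          _ = ρ a⁻¹ * (ρ a * ρ g) * ρ a⁻¹ := by simp only [mul_assoc]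
          _ = ρ a⁻¹ * (ρ g * ρ a) * ρ a⁻¹ := by rw [h1]
          _ = ρ a⁻¹ * ρ g * (ρ a * ρ a⁻¹) := by simp only [mul_assoc]
          _ = ρ a⁻¹ * ρ g := by rw [hρinv, mul_one] }
  have hZ₁ : ∀ z, z ∈ Z₁ ↔ ∀ g, ρ g * ρ z = ρ z * ρ g := fun z => Iff.rfl
  have hZn : Z₁.Normal := ⟨fun z hz g h => by
    have h1 := hz (g⁻¹ * h * g)
    have h2 : ρ g * (ρ (g⁻¹ * h * g) * ρ z) * ρ g⁻¹ = ρ g * (ρ z * ρ (g⁻¹ * h * g)) * ρ g⁻¹ := by rw [h1]
    simp only [← map_mul] at h2 ⊢
    have e1 : g * (g⁻¹ * h * g * z) * g⁻¹ = h * (g * z * g⁻¹) := by group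
    have e2 : g * (z * (g⁻¹ * h * g)) * g⁻¹ = (g * z * g⁻¹) * h := by group
    rw [e1, e2] at h2
    exact h2⟩
  by_cases hZtop : Z₁ = ⊤
  · -- `ρ(P)` is abelian
    have h1 : ∀ g ∈ derivedSeries P 1, ρ g = 1 := by
      intro g hg
      rw [derivedSeries_one] at hg
      have : commutator P ≤ ρ.ker := by
        rw [commutator_def, Subgroup.commutator_le]
        intro a _ b _
        rw [MonoidHom.mem_ker]
        rw [commutatorElement_def, map_mul, map_mul, map_mul]
        have hb : b ∈ Z₁ := by rw [hZtop]; trivial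
        rw [hb a, mul_assoc (ρ b), hρinv, mul_one, hρinv]
      exact this hg
    exact h1 g (derivedSeries_antitone _ (by omega) hg)
  -- an element `a` central modulo `Z₁`
  obtain ⟨a, haZ, ha⟩ : ∃ a : P, a ∉ Z₁ ∧ ∀ g, g * a * g⁻¹ * a⁻¹ ∈ Z₁ := by
    have hPQ : IsPGroup p (P ⧸ Z₁) := hP.to_quotient Z₁
    haveI : Nontrivial (P ⧸ Z₁) := QuotientGroup.nontrivial_iff.2 hZtop
    haveI := hPQ.center_nontrivial
    obtain ⟨c, hc⟩ := exists_ne (1 : Subgroup.center (P ⧸ Z₁))
    obtain ⟨a, hac⟩ := QuotientGroup.mk_surjective (c : P ⧸ Z₁)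
    refine ⟨a, ?_, ?_⟩
    · intro h
      apply hc
      apply Subtype.ext
      rw [← hac]
      exact (QuotientGroup.eq_one_iff a).2 h
    · intro g
      rw [← QuotientGroup.eq_one_iff, QuotientGroup.mk_mul, QuotientGroup.mk_mul, QuotientGroup.mk_mul,
        QuotientGroup.mk_inv, QuotientGroup.mk_inv, hac]
      have := Subgroup.mem_center_iff.1 c.2 (QuotientGroup.mk g)
      rw [this]; group
  have hscal : ∀ g, ∃ c : E, ρ g * ρ a = c • (ρ a * ρ g) := by
    intro g
    obtain ⟨c, hc⟩ := schur (ρ (g * a * g⁻¹ * a⁻¹)) (ha g)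
    refine ⟨c, ?_⟩
    have h1 : ρ g * ρ a = ρ (g * a * g⁻¹ * a⁻¹) * (ρ a * ρ g) := by
      rw [← map_mul, ← map_mul, ← map_mul]
      congr 1; group
    rw [h1, hc, smul_mul_assoc, one_mul]
  choose c hc using hscal
  -- the centralizer of `a` modulo the kernel
  let C : Subgroup P :=
    { carrier := {g | ρ g * ρ a = ρ a * ρ g}
      one_mem' := by simp
      mul_mem' := fun {x y} hx hy => by
        change ρ (x * y) * ρ a = ρ a * ρ (x * y)
        change ρ x * ρ a = ρ a * ρ x at hx
        change ρ y * ρ a = ρ a * ρ y at hy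
        rw [map_mul, mul_assoc, hy, ← mul_assoc, hx, mul_assoc]
      inv_mem' := fun {x} hx => by
        change ρ x⁻¹ * ρ a = ρ a * ρ x⁻¹
        change ρ x * ρ a = ρ a * ρ x at hx
        calc ρ x⁻¹ * ρ a = ρ x⁻¹ * ρ a * (ρ x * ρ x⁻¹) := by rw [hρinv, mul_one]
          _ = ρ x⁻¹ * (ρ a * ρ x) * ρ x⁻¹ := by simp only [mul_assoc]
          _ = ρ x⁻¹ * (ρ x * ρ a) * ρ x⁻¹ := by rw [hx]
          _ = (ρ x⁻¹ * ρ x) * ρ a * ρ x⁻¹ := by simp only [mul_assoc]
          _ = ρ a * ρ x⁻¹ := by rw [hρinv', one_mul] }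
  have hCmem : ∀ g, g ∈ C ↔ ρ g * ρ a = ρ a * ρ g := fun g => Iff.rfl
  have hcomm : commutator P ≤ C := by
    rw [commutator_def, Subgroup.commutator_le]
    intro x _ y _
    rw [hCmem]
    have e : ⁅x, y⁆ * (y * x) = x * y := by rw [commutatorElement_def]; group
    have h1 : ρ (x * y) * ρ a = (c x * c y) • (ρ a * ρ (x * y)) := by
      rw [map_mul, mul_assoc, hc y, mul_smul_comm, ← mul_assoc, hc x, smul_mul_assoc, smul_smul, mul_comm (c y),
        mul_assoc]
    have h2 : ρ (y * x) * ρ a = (c x * c y) • (ρ a * ρ (y * x)) := by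
      rw [map_mul, mul_assoc, hc x, mul_smul_comm, ← mul_assoc, hc y, smul_mul_assoc, smul_smul, mul_assoc]
    have hne : c x * c y ≠ 0 := by
      intro h
      rw [h, zero_smul] at h2
      have h3 : ρ ((y * x) * a) = 0 := by rw [map_mul, h2]
      have h4 := hρinv ((y * x) * a)
      rw [h3, zero_mul] at h4
      exact zero_ne_one h4
    have h3 : (c x * c y) • (ρ ⁅x, y⁆ * ρ a * ρ (y * x)) = (c x * c y) • (ρ a * ρ ⁅x, y⁆ * ρ (y * x)) := by
      calc (c x * c y) • (ρ ⁅x, y⁆ * ρ a * ρ (y * x)) = ρ ⁅x, y⁆ * ((c x * c y) • (ρ a * ρ (y * x))) := by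
            rw [mul_smul_comm, mul_assoc]
        _ = ρ ⁅x, y⁆ * (ρ (y * x) * ρ a) := by rw [h2]
        _ = ρ (⁅x, y⁆ * (y * x)) * ρ a := by rw [map_mul ρ ⁅x, y⁆, mul_assoc]
        _ = (c x * c y) • (ρ a * ρ (x * y)) := by rw [e, h1]
        _ = (c x * c y) • (ρ a * ρ ⁅x, y⁆ * ρ (y * x)) := by rw [← e, map_mul ρ ⁅x, y⁆, mul_assoc]
    have h4 := smul_right_injective _ hne h3
    have h5 : (ρ ⁅x, y⁆ * ρ a * ρ (y * x)) * ρ (y * x)⁻¹ = (ρ a * ρ ⁅x, y⁆ * ρ (y * x)) * ρ (y * x)⁻¹ :=
      congrArg (· * ρ (y * x)⁻¹) h4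
    rwa [mul_assoc, hρinv, mul_one, mul_assoc, hρinv, mul_one] at h5
  -- `C` preserves the eigenspaces of `a`
  have hCe : ∀ (μ : E) (g : C), ∀ x ∈ Module.End.eigenspace (ρ a) μ,
      (ρ.comp C.subtype) g x ∈ Module.End.eigenspace (ρ a) μ := by
    intro μ g x hx
    rw [Module.End.mem_eigenspace_iff] at hx ⊢
    have h1 := LinearMap.congr_fun g.2 x
    change ρ g (ρ a x) = ρ a (ρ g x) at h1
    change ρ a (ρ g x) = μ • ρ g x
    rw [← h1, hx, map_smul]
  -- dimensions
  have hdim : ∀ μ : E, 2 * finrank E (Module.End.eigenspace (ρ a) μ) ≤ n := by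
    intro μ
    by_cases hμ : Module.End.eigenspace (ρ a) μ = ⊥
    · rw [hμ, finrank_bot]; omega
    have hnt : Module.End.eigenspace (ρ a) μ ≠ ⊤ := by
      intro h
      apply haZ
      intro g
      have h1 : ρ a = μ • 1 := by
        ext x
        have : x ∈ Module.End.eigenspace (ρ a) μ := by rw [h]; trivial
        rw [Module.End.mem_eigenspace_iff] at this
        exact this
      rw [h1, mul_smul_comm, smul_mul_assoc, mul_one, one_mul]
    obtain ⟨g, x, hx, hgx⟩ : ∃ g, ∃ x ∈ Module.End.eigenspace (ρ a) μ, ρ g x ∉ Module.End.eigenspace (ρ a) μ := by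
      by_contra hcon
      push Not at hcon
      rcases hirr _ hcon with h | h
      · exact hμ h
      · exact hnt h
    -- `g` maps the `μ`-eigenspace into the `ν`-eigenspace
    have hcg : c g ≠ 0 := by
      intro h
      have h2 := hc g
      rw [h, zero_smul, ← map_mul] at h2
      have h4 := hρinv (g * a)
      rw [h2, zero_mul] at h4
      exact zero_ne_one h4
    have hmap : ∀ y ∈ Module.End.eigenspace (ρ a) μ, ρ g y ∈ Module.End.eigenspace (ρ a) ((c g)⁻¹ * μ) := by
      intro y hy
      rw [Module.End.mem_eigenspace_iff] at hy ⊢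
      have h1 := LinearMap.congr_fun (hc g) y
      change ρ g (ρ a y) = c g • ρ a (ρ g y) at h1
      rw [hy, map_smul] at h1
      rw [mul_smul, h1, smul_smul, inv_mul_cancel₀ hcg, one_smul]
    have hneq : (c g)⁻¹ * μ ≠ μ := by
      intro h
      apply hgx
      have := hmap x hx
      rwa [h] at this
    have hdisj : Disjoint (Module.End.eigenspace (ρ a) ((c g)⁻¹ * μ)) (Module.End.eigenspace (ρ a) μ) :=
      Module.End.disjoint_genEigenspace _ hneq _ _
    have hle : finrank E (Module.End.eigenspace (ρ a) μ) ≤ finrank E (Module.End.eigenspace (ρ a) ((c g)⁻¹ * μ)) := by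
      apply LinearMap.finrank_le_finrank_of_injective (f := (ρ g).restrict hmap)
      intro y z hyz
      have h1 : ρ g y = ρ g z := congrArg Subtype.val hyz
      have h2 := congrArg (ρ g⁻¹) h1
      have h3 : ∀ w : W, ρ g⁻¹ (ρ g w) = w := fun w => LinearMap.congr_fun (hρinv' g) w
      rw [h3, h3] at h2
      exact Subtype.ext h2
    have h5 := Submodule.finrank_add_finrank_le_of_disjoint hdisj
    rw [hn] at h5
    omega
  have hn2 : 2 ≤ n := by
    obtain ⟨μ, hμ⟩ := Module.End.exists_eigenvalue (ρ a)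
    have h1 : 0 < finrank E (Module.End.eigenspace (ρ a) μ) := by
      rw [finrank_pos_iff]
      exact Submodule.nontrivial_iff_ne_bot.2 hμ
    have h2 := hdim μ
    omega
  -- the conclusion
  have hlog : Nat.log 2 n = Nat.log 2 (n / 2) + 1 := by
    rw [Nat.log_div_base]
    have := Nat.log_pos (b := 2) (by norm_num) hn2
    omega
  rw [hlog] at hg
  have hg2 := derived_succ_le_map C hcomm _ hg
  obtain ⟨g', hg', rfl⟩ := hg2
  have hfix : ∀ μ : E, ∀ x ∈ Module.End.eigenspace (ρ a) μ, ρ (g' : P) x = x := by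
    intro μ x hx
    have hlt : finrank E (Module.End.eigenspace (ρ a) μ) < n := by have := hdim μ; omega
    have h1 := ih _ hlt C (hP.to_subgroup C) (Module.End.eigenspace (ρ a) μ) (subRep (ρ.comp C.subtype) _ (hCe μ)) rfl g'
      (derivedSeries_antitone _ (by
        have := Nat.log_mono_right (b := 2) (show finrank E (Module.End.eigenspace (ρ a) μ) ≤ n / 2 by
          have := hdim μ; omega)
        omega) hg')
    have h2 := LinearMap.congr_fun h1 ⟨x, hx⟩
    exact congrArg Subtype.val h2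
  have hss : (ρ a).IsSemisimple := by
    obtain ⟨k, hk⟩ := hP a
    apply Module.End.isSemisimple_of_squarefree_aeval_eq_zero (p := Polynomial.X ^ (p ^ k) - 1)
    · apply (Polynomial.X_pow_sub_one_separable_iff.mpr _).squarefree
      push_cast
      exact pow_ne_zero _ hpE
    · rw [map_sub, map_pow, Polynomial.aeval_X, map_one, ← map_pow, hk, map_one, sub_self]
  have htop : ⨆ μ, Module.End.eigenspace (ρ a) μ = ⊤ := by
    rw [← Module.End.iSup_maxGenEigenspace_eq_top (ρ a)]
    congr 1
    funext μ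
    exact (hss.isFinitelySemisimple.maxGenEigenspace_eq_eigenspace μ).symm
  have hle : (⊤ : Submodule E W) ≤ LinearMap.eqLocus (ρ (g' : P)) 1 := by
    rw [← htop, iSup_le_iff]
    intro μ x hx
    exact hfix μ x hx
  ext x
  exact hle (Submodule.mem_top (x := x))

theorem comm_aeval {F : Type*} [Field F] {V : Type*} [AddCommGroup V] [Module F V] (S T : Module.End F V)
    (hT : S * T = T * S) (f : Polynomial F) : S * Polynomial.aeval T f = Polynomial.aeval T f * S := by
  induction f using Polynomial.induction_on' with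
  | add p q hp hq => rw [map_add, mul_add, hp, hq, add_mul]
  | monomial n a =>
    rw [Polynomial.aeval_monomial, ← mul_assoc, (Algebra.commutes a S).symm, mul_assoc, mul_assoc]
    congr 1
    have : Commute S T := hT
    exact (this.pow_right n).eq

theorem exists_irreducible_factor {F : Type*} [Field F] {V : Type*} [AddCommGroup V] [Module F V]
    (ρ : P →* Module.End F V) (hV : Nontrivial V)
    (hirr : ∀ U : Submodule F V, (∀ g, ∀ x ∈ U, ρ g x ∈ U) → U = ⊥ ∨ U = ⊤) (T : Module.End F V)
    (hT : ∀ g, ρ g * T = T * ρ g) (f : Polynomial F) : f ≠ 0 → Polynomial.aeval T f = 0 →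
    ∃ f' : Polynomial F, Irreducible f' ∧ f' ∣ f ∧ Polynomial.aeval T f' = 0 := by
  induction f using WfDvdMonoid.induction_on_irreducible with
  | zero => exact fun h => absurd rfl h
  | unit u hu =>
    intro _ h
    have h1 := hu.map (Polynomial.aeval T)
    rw [h] at h1
    exact absurd h1 not_isUnit_zero
  | mul a i ha hi ih =>
    intro _ h
    rw [map_mul] at h
    by_cases h1 : Polynomial.aeval T a = 0
    · obtain ⟨f', h2, h3, h4⟩ := ih ha h1
      exact ⟨f', h2, h3.mul_left i, h4⟩
    · refine ⟨i, hi, dvd_mul_right _ _, ?_⟩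
      have h2 : LinearMap.range (Polynomial.aeval T a) = ⊤ := by
        refine (hirr _ ?_).resolve_left ?_
        · rintro g _ ⟨x, rfl⟩
          refine ⟨ρ g x, ?_⟩
          exact (LinearMap.congr_fun (comm_aeval (ρ g) T (hT g) a) x).symm
        · intro h3
          exact h1 (LinearMap.range_eq_bot.1 h3)
      ext x
      have hx : x ∈ LinearMap.range (Polynomial.aeval T a) := by rw [h2]; trivial
      obtain ⟨y, rfl⟩ := hx
      exact LinearMap.congr_fun h y

/-- the action over the field generated by `T` -/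
theorem over_L {p : ℕ} [hp : Fact p.Prime] [Finite P] (hP : IsPGroup p P) {F : Type v} [Field F] (hpF : (p : F) ≠ 0)
    {V : Type w} [AddCommGroup V] [Module F V] [FiniteDimensional F V] (ρ : P →* Module.End F V) (T : Module.End F V)
    (hT : ∀ g, ρ g * T = T * ρ g) (f : Polynomial F) (hf : Irreducible f) (hfT : Polynomial.aeval T f = 0) :
    ∀ g ∈ derivedSeries P (Nat.log 2 (finrank F V / f.natDegree) + 1), ρ g = 1 := by
  haveI : Fact (Irreducible f) := ⟨hf⟩
  let φ : AdjoinRoot f →+* Module.End F V := Ideal.Quotient.lift _ (Polynomial.aeval T).toRingHom (by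
    intro a ha
    rw [Ideal.mem_span_singleton] at ha
    obtain ⟨b, rfl⟩ := ha
    change Polynomial.aeval T (f * b) = 0
    rw [map_mul, hfT, zero_mul])
  have hφ : ∀ a : Polynomial F, φ (AdjoinRoot.mk f a) = Polynomial.aeval T a := fun a => rfl
  letI mL : Module (AdjoinRoot f) V := Module.compHom V φ
  have hsmul : ∀ (l : AdjoinRoot f) (v : V), l • v = φ l v := fun _ _ => rfl
  haveI : IsScalarTower F (AdjoinRoot f) V := ⟨fun c l v => by
    obtain ⟨a, rfl⟩ := AdjoinRoot.mk_surjective l
    rw [hsmul, hsmul]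
    have : c • (AdjoinRoot.mk f a) = AdjoinRoot.mk f (c • a) := rfl
    rw [this, hφ, hφ, map_smul]; rfl⟩
  have hfr : finrank F (AdjoinRoot f) = f.natDegree := by
    rw [(AdjoinRoot.powerBasis hf.ne_zero).finrank, AdjoinRoot.powerBasis_dim]
  have hmul := finrank_mul_finrank F (AdjoinRoot f) V
  haveI : FiniteDimensional (AdjoinRoot f) V := Module.Finite.of_restrictScalars_finite F (AdjoinRoot f) V
  let ρL : P →* Module.End (AdjoinRoot f) V :=
    { toFun := fun g =>
        { toFun := ρ g
          map_add' := map_add (ρ g)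
          map_smul' := fun l v => by
            obtain ⟨a, rfl⟩ := AdjoinRoot.mk_surjective l
            rw [RingHom.id_apply, hsmul, hsmul, hφ]
            exact LinearMap.congr_fun (comm_aeval (ρ g) T (hT g) a) v }
      map_one' := by
        ext v
        change ρ 1 v = v
        rw [map_one]; rfl
      map_mul' := fun g h => by
        ext v
        change ρ (g * h) v = ρ g (ρ h v)
        rw [map_mul]; rfl }
  have hρL : ∀ g v, ρL g v = ρ g v := fun _ _ => rfl
  let E := AlgebraicClosure (AdjoinRoot f)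
  let ρE : P →* Module.End E (TensorProduct (AdjoinRoot f) E V) :=
    ((Module.End.baseChangeHom (AdjoinRoot f) E V : _ →ₐ[AdjoinRoot f] _) : _ →* _).comp ρL
  have hpE : (p : E) ≠ 0 := by
    have h1 := (algebraMap F E).injective.ne hpF
    rwa [map_natCast, map_zero] at h1
  have key := ac hpE (finrank (AdjoinRoot f) V) P hP (TensorProduct (AdjoinRoot f) E V) ρE
    (by rw [Module.finrank_baseChange])
  intro g hg
  have hdeg : 0 < f.natDegree := hf.natDegree_pos
  have hm : finrank F V / f.natDegree = finrank (AdjoinRoot f) V := by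
    rw [← hmul, hfr, Nat.mul_div_cancel_left _ hdeg]
  rw [hm] at hg
  have h1 := key g hg
  ext v
  have h2 := LinearMap.congr_fun h1 (1 ⊗ₜ[AdjoinRoot f] v)
  have h3 : (1 : E) ⊗ₜ[AdjoinRoot f] (ρ g v) = 1 ⊗ₜ[AdjoinRoot f] v := h2
  exact Module.FaithfullyFlat.tensorProduct_mk_injective (A := AdjoinRoot f) (B := E) V h3

theorem gen {p : ℕ} [hp : Fact p.Prime] {F : Type v} [Field F] [Fintype F] (q : ℕ) (hF : Fintype.card F = q)
    (hpq : ¬ p ∣ q) (e : ℕ) (he : e = orderOf (q : ZMod p)) (n : ℕ) :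
    ∀ (P : Type u) [Group P] [Finite P] (_ : IsPGroup p P) (V : Type w) [AddCommGroup V] [Module F V]
      [FiniteDimensional F V] (ρ : P →* Module.End F V), finrank F V = n →
      ∀ g ∈ derivedSeries P (Nat.log 2 (n / e) + 1), ρ g = 1 := by
  have hpF : (p : F) ≠ 0 := by
    intro h
    obtain ⟨r, hr⟩ := CharP.exists F
    haveI := hr
    have hrp : r.Prime := CharP.char_is_prime F r
    have h1 := (CharP.cast_eq_zero_iff F r p).1 h
    have h2 : r = p := (Nat.prime_dvd_prime_iff_eq hrp hp.out).1 h1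
    obtain ⟨k, hk, hk2⟩ := FiniteField.card F r
    apply hpq
    rw [← hF, hk2, h2]
    exact dvd_pow_self _ (by positivity)
  induction n using Nat.strong_induction_on with
  | _ n ih =>
  intro P _ _ hP V _ _ _ ρ hn g hg
  by_cases hirr : ∀ U : Submodule F V, (∀ g, ∀ x ∈ U, ρ g x ∈ U) → U = ⊥ ∨ U = ⊤
  swap
  · push Not at hirr
    obtain ⟨U, hU, hU1, hU2⟩ := hirr
    have hd1 : finrank F U < n := by rw [← hn]; exact Submodule.finrank_lt hU2
    have hd2 : finrank F (V ⧸ U) < n := by
      have h1 := Submodule.finrank_quotient_add_finrank U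
      have h2 : 0 < finrank F U := by
        rw [finrank_pos_iff]
        exact Submodule.nontrivial_iff_ne_bot.2 hU1
      omega
    have mono : ∀ m, m < n → derivedSeries P (Nat.log 2 (n / e) + 1) ≤ derivedSeries P (Nat.log 2 (m / e) + 1) := by
      intro m hm
      exact derivedSeries_antitone _ (by
        have := Nat.log_mono_right (b := 2) (Nat.div_le_div_right (c := e) hm.le); omega)
    exact reduce hpF hP ρ U hU g (ih _ hd1 P hP U (subRep ρ U hU) rfl g (mono _ hd1 hg))
      (ih _ hd2 P hP (V ⧸ U) (quoRep ρ U hU) rfl g (mono _ hd2 hg))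
  by_cases hV : Subsingleton V
  · exact LinearMap.ext (fun x => Subsingleton.elim _ _)
  haveI hVn : Nontrivial V := not_subsingleton_iff_nontrivial.1 hV
  by_cases hker : ρ.ker = ⊤
  · have : g ∈ ρ.ker := by rw [hker]; trivial
    exact this
  -- a central element of order `p` modulo the kernel
  obtain ⟨z, hz1, hz2, hz3⟩ : ∃ z : P, z ∉ ρ.ker ∧ z ^ p ∈ ρ.ker ∧ ∀ g, g * z * g⁻¹ * z⁻¹ ∈ ρ.ker := by
    have hPQ : IsPGroup p (P ⧸ ρ.ker) := hP.to_quotient _
    haveI : Nontrivial (P ⧸ ρ.ker) := QuotientGroup.nontrivial_iff.2 hker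
    haveI := hPQ.center_nontrivial
    obtain ⟨m, hm0, hm⟩ := (hPQ.to_subgroup (Subgroup.center (P ⧸ ρ.ker))).nontrivial_iff_card.1 inferInstance
    obtain ⟨c, hc⟩ := exists_prime_orderOf_dvd_card' p (G := Subgroup.center (P ⧸ ρ.ker)) (by
      rw [hm]; exact dvd_pow_self _ (by omega))
    obtain ⟨a, hac⟩ := QuotientGroup.mk_surjective (c : P ⧸ ρ.ker)
    refine ⟨a, ?_, ?_, ?_⟩
    · intro h
      have h1 : c = 1 := by
        apply Subtype.ext
        rw [← hac]
        exact (QuotientGroup.eq_one_iff a).2 h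
      rw [h1, orderOf_one] at hc
      exact hp.out.one_lt.ne hc
    · rw [← QuotientGroup.eq_one_iff, QuotientGroup.mk_pow, hac]
      have := pow_orderOf_eq_one c
      rw [hc] at this
      exact congrArg Subtype.val this
    · intro g
      rw [← QuotientGroup.eq_one_iff, QuotientGroup.mk_mul, QuotientGroup.mk_mul, QuotientGroup.mk_mul,
        QuotientGroup.mk_inv, QuotientGroup.mk_inv, hac]
      have := Subgroup.mem_center_iff.1 c.2 (QuotientGroup.mk g)
      rw [this]; group
  have hT : ∀ g, ρ g * ρ z = ρ z * ρ g := by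
    intro g
    have h1 : ρ (g * z * g⁻¹ * z⁻¹) = 1 := hz3 g
    have h2 : g * z = (g * z * g⁻¹ * z⁻¹) * (z * g) := by group
    rw [← map_mul, h2, map_mul, h1, one_mul, map_mul]
  have hTp : (ρ z) ^ p = 1 := by rw [← map_pow]; exact hz2
  have hT1 : ρ z - 1 ≠ 0 := by
    intro h
    exact hz1 (sub_eq_zero.1 h)
  have hcyc : Polynomial.aeval (ρ z) (Polynomial.cyclotomic p F) = 0 := by
    have h1 : Polynomial.cyclotomic p F * (Polynomial.X - 1) = Polynomial.X ^ p - 1 :=
      Polynomial.cyclotomic_prime_mul_X_sub_one F p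
    have h2 : Polynomial.aeval (ρ z) (Polynomial.cyclotomic p F) * (ρ z - 1) = 0 := by
      have h3 := congrArg (Polynomial.aeval (ρ z)) h1
      rw [map_mul, map_sub, map_sub, Polynomial.aeval_X, map_one, map_pow, Polynomial.aeval_X, hTp, sub_self] at h3
      exact h3
    have h4 : LinearMap.range (ρ z - 1) = ⊤ := by
      refine (hirr _ ?_).resolve_left (fun h => hT1 (LinearMap.range_eq_bot.1 h))
      rintro g _ ⟨x, rfl⟩
      refine ⟨ρ g x, ?_⟩
      have h5 : ρ g * (ρ z - 1) = (ρ z - 1) * ρ g := by rw [mul_sub, sub_mul, hT g, mul_one, one_mul]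
      exact (LinearMap.congr_fun h5 x).symm
    ext x
    have hx : x ∈ LinearMap.range (ρ z - 1) := by rw [h4]; trivial
    obtain ⟨y, rfl⟩ := hx
    exact LinearMap.congr_fun h2 y
  obtain ⟨f, hf1, hf2, hf3⟩ := exists_irreducible_factor ρ hVn hirr (ρ z) hT _
    (Polynomial.cyclotomic_ne_zero p F) hcyc
  have hdeg : f.natDegree = e := by
    obtain ⟨r, hr⟩ := CharP.exists F
    haveI := hr
    have hrp : Fact r.Prime := ⟨CharP.char_is_prime F r⟩
    obtain ⟨k, hk, hk2⟩ := FiniteField.card F r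
    have hrpne : r.Coprime p := by
      rw [Nat.coprime_primes hrp.out hp.out]
      rintro rfl
      exact hpF (CharP.cast_eq_zero F r)
    rw [Polynomial.natDegree_of_dvd_cyclotomic_of_irreducible (p := r) (f := k) hk2 hrpne hf2 hf1, he, ← orderOf_units,
      ZMod.coe_unitOfCoprime, ← hF, hk2]
  have h6 := over_L hP hpF ρ (ρ z) hT f hf1 hf3 g
  rw [hn, hdeg] at h6
  exact h6 hg

end Cfsg.Agent.H24.DLen
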