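import Mathlib
import Cfsg.Prelude.Def_Characters
import Cfsg.Prelude.Def_Blocks
import Cfsg.Agent.H3_Burnside
import Cfsg.Agent.H3_Lift
import Cfsg.Agent.H3_CharMult
import Cfsg.Agent.H10_Char
import Cfsg.Agent.H10_BlockQuot

/-!
# Character degrees divisible by at most two primes force solvability
-/

set_option autoImplicit false

open scoped ComplexConjugate

namespace Cfsg.Agent.H24.DegPrimes

open Cfsg Cfsg.Agent.H3.CharBasic Cfsg.Agent.H3.CharIrr Cfsg.Agent.H3.CharComplete
  Cfsg.Agent.H3.CharInd Cfsg.Agent.H3.CharInt Cfsg.Agent.H3.CharGal Cfsg.Agent.H3.Burnside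

universe u

/-- all character degrees are `{p, q}`-numbers -/
def Deg (G : Type u) [Group G] (p q : ℕ) : Prop :=
  ∀ χ : IrrCharacter G, ∀ r : ℕ, r.Prime → r ∣ charDegree (χ : G → ℂ) → r = p ∨ r = q

variable {G : Type u} [Group G] [Finite G]

theorem mem_center_of_deg [IsSimpleGroup G] {p q : ℕ} (hp : p.Prime) {g : G}
    (hg : g ≠ 1) (hclass : ¬ q ∣ (Subgroup.centralizer ({g} : Set G)).index) (hdeg : Deg G p q) :
    g ∈ Subgroup.center G := by
  classical
  have := Fintype.ofFinite G
  have := Fintype.ofFinite (IrrCharacter G)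
  by_contra hcen
  -- claim: for each irreducible χ ≠ 1, χ(1) χ(g) ∈ p · AlgInt
  have key : ∀ χ : IrrCharacter G, (χ : G → ℂ) ≠ (fun _ => 1) →
      ∃ a : ℂ, IsIntegral ℤ a ∧ (χ : G → ℂ) 1 * (χ : G → ℂ) g = p * a := by
    intro χ hχ1
    obtain ⟨n, ρ, hρ, hχ⟩ := χ.2
    have hd1 : ((charDegree (χ : G → ℂ) : ℕ) : ℂ) = (χ : G → ℂ) 1 := Cfsg.Agent.H10.Char.charDegree_eq χ.2
    set d := charDegree (χ : G → ℂ) with hd
    have hfin : Module.finrank ℂ (Fin n → ℂ) = d := by
      rw [← hχ, Representation.char_one] at hd1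
      exact_mod_cast hd1.symm
    by_cases hpd : p ∣ d
    · obtain ⟨e, he⟩ := hpd
      refine ⟨e * (χ : G → ℂ) g, ?_, ?_⟩
      · exact (isIntegral_algebraMap (R := ℤ) (A := ℂ) (x := (e : ℤ))).mul
          (IsChar.isIntegral (IsIrr.isCharacter χ.2) g)
      · rw [← hd1, he]; push_cast; ring
    · have hcop : Nat.Coprime (Module.finrank ℂ (Fin n → ℂ))
          (Subgroup.centralizer ({g} : Set G)).index := by
        rw [hfin]
        apply Nat.Coprime.symm
        apply Nat.coprime_of_dvd
        intro k hk h1 h2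
        rcases hdeg χ k hk h2 with h3 | h3
        · rw [h3] at h2; exact hpd h2
        · rw [h3] at h1; exact hclass h1
      rcases burnside_lemma ρ hρ g hcop with h0 | h1
      · refine ⟨0, isIntegral_zero, ?_⟩
        rw [← hχ, h0]; simp
      · exfalso
        obtain ⟨ω, hω⟩ := (norm_char_eq_iff ρ g).mp h1
        have hinj := injective_of_simple ρ hρ (by rw [hχ]; exact hχ1)
        apply hcen
        rw [Subgroup.mem_center_iff]
        intro h
        apply hinj
        rw [map_mul, map_mul, hω]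
        ext v; simp
  choose a ha hab using key
  have h1 := sum_one_mul g
  rw [if_neg hg] at h1
  have hone : (⟨fun _ => 1, isIrr_one⟩ : IrrCharacter G) ∈ Finset.univ := Finset.mem_univ _
  rw [← Finset.add_sum_erase _ _ hone] at h1
  simp only [mul_one] at h1
  have h2 : ∑ χ ∈ Finset.univ.erase (⟨fun _ => 1, isIrr_one⟩ : IrrCharacter G),
      (χ : G → ℂ) 1 * (χ : G → ℂ) g = p * ∑ χ ∈ Finset.univ.erase
      (⟨fun _ => 1, isIrr_one⟩ : IrrCharacter G),
      (if h : (χ : G → ℂ) ≠ (fun _ => 1) then a χ h else 0) := by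
    rw [Finset.mul_sum]
    refine Finset.sum_congr rfl fun χ hχ => ?_
    have hne : (χ : G → ℂ) ≠ (fun _ => 1) := fun h => (Finset.mem_erase.mp hχ).1 (Subtype.ext h)
    rw [dif_pos hne, hab χ hne]
  rw [h2] at h1
  set S := ∑ χ ∈ Finset.univ.erase (⟨fun _ => 1, isIrr_one⟩ : IrrCharacter G),
      (if h : (χ : G → ℂ) ≠ (fun _ => 1) then a χ h else 0) with hS
  have hSint : IsIntegral ℤ S := by
    refine IsIntegral.sum _ fun χ _ => ?_
    split_ifs with h
    · exact ha χ h
    · exact isIntegral_zero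
  have hp0 : (p : ℂ) ≠ 0 := by exact_mod_cast hp.ne_zero
  have h3 : ((1 : ℕ) : ℂ) / (p : ℂ) = -S := by
    rw [div_eq_iff hp0]; push_cast; linear_combination h1
  have h4 : p ∣ 1 := dvd_of_isIntegral_div hp.ne_zero (by rw [h3]; exact hSint.neg)
  exact hp.one_lt.ne' (Nat.dvd_one.mp h4)

theorem comm_of_deg [IsSimpleGroup G] {p q : ℕ} (hp : p.Prime) (hq : q.Prime) (hqG : q ∣ Nat.card G)
    (hdeg : Deg G p q) (x y : G) : x * y = y * x := by
  have : Fact q.Prime := ⟨hq⟩
  obtain ⟨Q⟩ : Nonempty (Sylow q G) := inferInstance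
  have hQ : (Q : Subgroup G) ≠ ⊥ := Q.ne_bot_of_dvd_card hqG
  have hQnt : Nontrivial Q := (Subgroup.nontrivial_iff_ne_bot _).mpr hQ
  have hcen := Q.isPGroup'.center_nontrivial
  obtain ⟨z, hz1⟩ := exists_ne (1 : Subgroup.center Q)
  have hz : ((z : Q) : G) ≠ 1 := fun h => hz1 (Subtype.ext (Subtype.ext h))
  have hle : (Q : Subgroup G) ≤ Subgroup.centralizer ({((z : Q) : G)} : Set G) := by
    intro x hx
    rw [Subgroup.mem_centralizer_iff]
    intro y hy
    rw [Set.mem_singleton_iff] at hy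
    subst hy
    have := Subgroup.mem_center_iff.mp z.2 ⟨x, hx⟩
    exact (congrArg Subtype.val this).symm
  have hidx : ¬ q ∣ (Subgroup.centralizer ({((z : Q) : G)} : Set G)).index := by
    intro h
    exact Q.not_dvd_index (h.trans (Subgroup.index_dvd_of_le hle))
  exact comm_of_center_ne_bot hz (mem_center_of_deg hp hz hidx hdeg) x y

theorem deg_quotient {p q : ℕ} (N : Subgroup G) [N.Normal] (h : Deg G p q) : Deg (G ⧸ N) p q := by
  intro χ r hr hrd
  have := Fintype.ofFinite G
  have := Fintype.ofFinite (G ⧸ N)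
  apply h (H10.BlockQuot.infl N χ) r hr
  have h1 : (charDegree ((H10.BlockQuot.infl N χ : IrrCharacter G) : G → ℂ) : ℂ) = charDegree (χ : G ⧸ N → ℂ) := by
    rw [Cfsg.Agent.H10.Char.charDegree_eq (H10.BlockQuot.infl N χ).2, Cfsg.Agent.H10.Char.charDegree_eq χ.2,
      H10.BlockQuot.infl_apply]
    rfl
  have h2 : charDegree ((H10.BlockQuot.infl N χ : IrrCharacter G) : G → ℂ) = charDegree (χ : G ⧸ N → ℂ) := by
    exact_mod_cast h1
  rw [h2]; exact hrd

theorem deg_dvd_of_normal (N : Subgroup G) [hN : N.Normal] (θ : IrrCharacter N) :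
    ∃ χ : IrrCharacter G, charDegree (θ : N → ℂ) ∣ charDegree (χ : G → ℂ) := by
  classical
  have := Fintype.ofFinite G
  have := Fintype.ofFinite N
  obtain ⟨χ, hχ, h1⟩ := H3.CharMult.exists_constituent_ind (G := G) θ.2
  rw [H3.CharMult.constituent_ind_iff (IsIrr.isCharacter hχ)] at h1
  obtain ⟨b, hb, -⟩ := H3.Lift.degree_dvd N hχ θ.2 h1
  refine ⟨⟨χ, hχ⟩, b, ?_⟩
  have h2 : ((charDegree χ : ℕ) : ℂ) = (charDegree (θ : N → ℂ) * b : ℕ) := by
    push_cast
    rw [Cfsg.Agent.H10.Char.charDegree_eq hχ, Cfsg.Agent.H10.Char.charDegree_eq θ.2, hb, mul_comm]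
  exact_mod_cast h2

theorem deg_normal {p q : ℕ} (N : Subgroup G) [hN : N.Normal] (h : Deg G p q) : Deg N p q := by
  intro θ r hr hrd
  obtain ⟨χ, hχ⟩ := deg_dvd_of_normal N θ
  exact h χ r hr (hrd.trans hχ)

theorem deg_one_dvd (χ : IrrCharacter G) : charDegree (χ : G → ℂ) ∣ Nat.card G := by
  have := Fintype.ofFinite G
  obtain ⟨n, -, hn, hdvd⟩ := IsIrr.dvd_card χ.2
  have h1 : ((charDegree (χ : G → ℂ) : ℕ) : ℂ) = n := by rw [Cfsg.Agent.H10.Char.charDegree_eq χ.2, hn]
  have h2 : charDegree (χ : G → ℂ) = n := by exact_mod_cast h1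
  rw [h2]; exact hdvd

theorem solvable (n : ℕ) : ∀ (G : Type u) [Group G] [Finite G] (p q : ℕ), p.Prime → q.Prime →
    Nat.card G = n → Deg G p q → Group.IsSolvable G := by
  induction n using Nat.strong_induction_on with
  | _ n ih =>
    intro G _ _ p q hp hq hn hdeg
    classical
    by_cases htriv : Subsingleton G
    · infer_instance
    rw [not_subsingleton_iff_nontrivial] at htriv
    by_cases hsimp : IsSimpleGroup G
    · have hcomm : ∀ x y : G, x * y = y * x := by
        by_cases hqG : q ∣ Nat.card G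
        · exact comm_of_deg hp hq hqG hdeg
        · by_cases hpG : p ∣ Nat.card G
          · exact comm_of_deg hq hp hpG (fun χ r hr h => (hdeg χ r hr h).symm)
          · obtain ⟨r, hr, hrG⟩ := Nat.exists_prime_and_dvd (Finite.one_lt_card (α := G)).ne'
            refine comm_of_deg hp hr hrG (fun χ s hs h => ?_)
            exfalso
            have h2 := h.trans (deg_one_dvd χ)
            rcases hdeg χ s hs h with h1 | h1
            · rw [h1] at h2; exact hpG h2
            · rw [h1] at h2; exact hqG h2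
      exact IsSimpleGroup.comm_iff_isSolvable.mp hcomm
    · have : ∃ N : Subgroup G, N.Normal ∧ N ≠ ⊥ ∧ N ≠ ⊤ := by
        by_contra hne
        push Not at hne
        apply hsimp
        exact { eq_bot_or_eq_top_of_normal := fun N hN => by
                  by_cases h : N = ⊥
                  · exact Or.inl h
                  · exact Or.inr (hne N hN h) }
      obtain ⟨N, hN, hbot, htop⟩ := this
      have hmul := N.card_mul_index
      have hN1 : 1 < Nat.card N := N.one_lt_card_iff_ne_bot.mpr hbot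
      have hi1 : N.index ≠ 1 := fun h => htop (Subgroup.index_eq_one.mp h)
      have hi0 : N.index ≠ 0 := Subgroup.FiniteIndex.index_ne_zero
      have hlt1 : Nat.card N < n := by
        rw [← hn, ← hmul]
        exact lt_mul_of_one_lt_right Nat.card_pos (by omega)
      have hlt2 : N.index < n := by
        rw [← hn, ← hmul]
        exact lt_mul_of_one_lt_left (by omega) hN1
      have s1 : Group.IsSolvable N := ih _ hlt1 N p q hp hq rfl (deg_normal N hdeg)
      have s2 : Group.IsSolvable (G ⧸ N) := ih _ hlt2 (G ⧸ N) p q hp hq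
        (Subgroup.index_eq_card N).symm (deg_quotient N hdeg)
      exact (Group.isSolvable_iff_subgroup_quotient N).mpr ⟨s1, s2⟩

end Cfsg.Agent.H24.DegPrimes
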