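import Mathlib
import Cfsg.Agent.S2792
import Cfsg.Agent.S5224
import Cfsg.Agent.H27_FusHypG
import Cfsg.Prelude.Def_BaumannBlocks

/-! From `P ∩ G' = P ∩ N'` to `O^p(N) = O^p(G) ∩ N` for the normalizer of a weakly closed subgroup. -/

set_option autoImplicit false

namespace Cfsg.Agent.H24.HW

open Cfsg Cfsg.FusionSystem Cfsg.Agent.H27.Grp Cfsg.Agent.H27.Fus

variable {G : Type*} [Group G] [Finite G] {p : ℕ} [Fact p.Prime]

omit [Finite G] [Fact p.Prime] in
theorem opR_conj {K : Subgroup G} {a k : G} (ha : a ∈ opR p K) (hk : k ∈ K) : k * a * k⁻¹ ∈ opR p K := by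
  have hn := Cfsg.Agent.H2.Fusion.pResidual_normal (G := K) p
  obtain ⟨b, hb, rfl⟩ := ha
  exact ⟨⟨k, hk⟩ * b * (⟨k, hk⟩ : K)⁻¹, hn.conj_mem b hb _, rfl⟩

theorem opR_aut {K P : Subgroup G} (hPK : P ≤ K) {α : MulAut P} (hα : α ∈ opR p (autInducedBy K P)) (x : P) :
    (x : G)⁻¹ * (α x : G) ∈ opR p K := by
  rw [opR_eq] at hα
  induction hα using Subgroup.closure_induction generalizing x with
  | mem α hα =>
    obtain ⟨h1, h2⟩ := hα
    obtain ⟨g, hg, hgα⟩ := mem_autInducedBy.1 h1
    have hN : g ∈ Subgroup.normalizer (P : Set G) := autInducedBy_norm (K := K) hgα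
    have e1 : P.normalizerMonoidHom ⟨g, hN⟩ = α := by
      ext y
      rw [hgα]; rfl
    obtain ⟨k, hk1, hk2⟩ := exists_pow_lift (p := p) P.normalizerMonoidHom ⟨g, hN⟩ (e1 ▸ h2)
    have hk3 : g ^ k ∈ opR p K := mem_opR_of (K.pow_mem hg k) (by
      rw [← Subgroup.orderOf_coe] at hk2
      exact hk2)
    have h3 : (α x : G) = g ^ k * x * (g ^ k)⁻¹ := by
      rw [← e1, ← hk1]; rfl
    rw [h3]
    have := opR_conj hk3 (K.inv_mem (hPK x.2))
    rw [inv_inv] at this
    have h4 := mul_mem this (inv_mem hk3)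
    rwa [show (x : G)⁻¹ * g ^ k * x * (g ^ k)⁻¹ = (x : G)⁻¹ * (g ^ k * x * (g ^ k)⁻¹) by group] at h4
  | one => simp
  | mul a b _ _ iha ihb =>
    have h1 := ihb x
    have h2 := iha (b x)
    have h3 := mul_mem h1 h2
    rwa [show (x : G)⁻¹ * (b x : G) * ((b x : G)⁻¹ * (a (b x) : G)) = (x : G)⁻¹ * ((a * b) x : P) by
      rw [MulAut.mul_apply]; group] at h3
  | inv a _ iha =>
    have h1 := iha (a⁻¹ x)
    rw [MulAut.apply_inv_self] at h1
    have h2 := inv_mem h1
    rwa [mul_inv_rev, inv_inv] at h2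

theorem hyp_le_opR {K S : Subgroup G} (hS : IsSyl p S K) :
    (fusionSystemOfSubgroup K S hS.le).hyperfocalSubgroup p ≤ opR p K := by
  rw [hyp_eq, Subgroup.closure_le]
  rintro y ⟨P, α, x, hP, hα, rfl⟩
  rw [autGroup_fss hP] at hα
  exact opR_aut (hP.trans hS.le) hα x

theorem main (S : Sylow p G) (K : Subgroup G) (hSK : (S : Subgroup G) ≤ K)
    (hfoc : (S : Subgroup G) ⊓ commutator G = (S : Subgroup G) ⊓ ⁅K, K⁆) :
    pResidualOf p K = pResidual p G ⊓ K := by
  have hn := Cfsg.Agent.H2.Fusion.pResidual_normal (G := G) p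
  have hS : IsSyl p (S : Subgroup G) ⊤ := isSyl_sylow S
  have hSK' : IsSyl p (S : Subgroup G) K := by
    refine ⟨hSK, S.isPGroup', ?_⟩
    intro hd
    apply S.not_dvd_index
    exact hd.trans (Subgroup.relIndex_dvd_index_of_le hSK)
  have hfin : Finite (S : Subgroup G) := inferInstance
  have hsub : (fusionSystemOfSubgroup K (S : Subgroup G) hSK'.le).IsSubsystemOf
      (fusionSystemOfSubgroup ⊤ (S : Subgroup G) hS.le) := by
    intro P φ hφ
    obtain ⟨h1, h2, g, hg, h3⟩ := hφ
    exact ⟨h1, h2, g, trivial, h3⟩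
  have h1 := (S5224.result (S := (S : Subgroup G)) p S.isPGroup' (fusionSystemOfSubgroup ⊤ (S : Subgroup G) hS.le)
    (saturated_fss hS) (fusionSystemOfSubgroup K (S : Subgroup G) hSK'.le) (saturated_fss hSK') hsub).2.1 (by
      rw [foc_fss hS, foc_fss hSK', ← hfoc, commutator_def])
  have h2 : (S : Subgroup G) ⊓ pResidual p G ≤ opR p K := by
    rw [← hyp_gfs hS, gfs_eq, h1]
    exact hyp_le_opR hSK'
  show opR p K = _
  apply le_antisymm
  · refine le_inf ?_ (opR_le K)
    rw [opR_eq, Subgroup.closure_le]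
    rintro a ⟨-, ha⟩
    exact Cfsg.Agent.H2.Fusion.mem_pResidual ha
  · -- K = S ⬝ O^p(K)
    rintro x ⟨hx, hxK⟩
    have hnK := Cfsg.Agent.H2.Fusion.pResidual_normal (G := K) p
    -- Sylow of `pResidual p G ⊓ K`
    let L : Subgroup K := (pResidual p G).subgroupOf K
    have hL : L.Normal := hn.subgroupOf K
    obtain ⟨P, hP⟩ := (isSyl_iff hSK'.le).1 hSK'
    -- L is generated by its p-elements and p'-elements; both lie in `pResidual p K`
    have hle : pResidual p K ≤ L := by
      unfold pResidual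
      rw [Subgroup.closure_le]
      intro a ha
      have ha' : Nat.Coprime (orderOf a) p := ha
      refine Cfsg.Agent.H2.Fusion.mem_pResidual ?_
      show (orderOf (a : G)).Coprime p
      rwa [Subgroup.orderOf_coe]
    have hidx : ∃ k, (pResidual p K).index = p ^ k := by
      have := Cfsg.Agent.H2.Fusion.isPGroup_quotient_of_pResidual_le (p := p) (N := pResidual p K) le_rfl
      obtain ⟨k, hk⟩ := IsPGroup.iff_card.1 this
      exact ⟨k, hk⟩
    -- P ⊔ O^p(K) = ⊤
    have htop : (P : Subgroup K) ⊔ pResidual p K = ⊤ := by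
      rw [← Subgroup.index_eq_one]
      obtain ⟨k, hk⟩ := hidx
      have h3 : ((P : Subgroup K) ⊔ pResidual p K).index ∣ p ^ k := hk ▸ Subgroup.index_dvd_of_le le_sup_right
      have h4 : ((P : Subgroup K) ⊔ pResidual p K).index ∣ (P : Subgroup K).index := Subgroup.index_dvd_of_le le_sup_left
      obtain ⟨j, -, hj⟩ := (Nat.dvd_prime_pow Fact.out).1 h3
      rw [hj] at h4 ⊢
      rcases Nat.eq_zero_or_pos j with h5 | h5
      · rw [h5, pow_zero]
      · exact absurd ((dvd_pow_self p h5.ne').trans h4) P.not_dvd_index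
    have h3 : (⟨x, hxK⟩ : K) ∈ (P : Subgroup K) ⊔ pResidual p K := by rw [htop]; trivial
    rw [← SetLike.mem_coe, Subgroup.mul_normal] at h3
    obtain ⟨a, ha, b, hb, hab⟩ := Set.mem_mul.1 h3
    have haL : (a : G) ∈ pResidual p G := by
      have hbL : (b : G) ∈ pResidual p G := hle hb
      have e : (a : G) = x * (b : G)⁻¹ := by
        have := congrArg Subtype.val hab
        simp only [Subgroup.coe_mul] at this
        rw [← this]; group
      rw [e]
      exact mul_mem hx (inv_mem hbL)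
    have haS : (a : G) ∈ (S : Subgroup G) := by
      have : a ∈ (P : Subgroup K) := ha
      rw [hP] at this
      exact this
    have ha3 : (a : G) ∈ opR p K := h2 ⟨haS, haL⟩
    have hb3 : (b : G) ∈ opR p K := ⟨b, hb, rfl⟩
    have := mul_mem ha3 hb3
    have e : (a : G) * b = x := congrArg Subtype.val hab
    rwa [e] at this

theorem hall_wielandt (S : Sylow p G) (Q : Subgroup G) (hQ : Cfsg.IsWeaklyClosed Q (S : Subgroup G))
    (h : ∀ u ∈ (S : Subgroup G), ∀ z ∈ Q, (fun y : G => y⁻¹ * z⁻¹ * y * z)^[p - 1] u = 1) :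
    Cfsg.pResidualOf p (Subgroup.normalizer (Q : Set G)) = Cfsg.pResidual p G ⊓ Subgroup.normalizer (Q : Set G) := by
  apply main S
  · intro s hs
    have h1 : Q.map (MulAut.conj s).toMonoidHom ≤ (S : Subgroup G) := by
      rintro _ ⟨q, hq, rfl⟩
      exact mul_mem (mul_mem hs (hQ.1 hq)) (inv_mem hs)
    have h2 := hQ.2 s h1
    rw [Subgroup.mem_set_normalizer_iff]
    intro x
    constructor
    · intro hx
      rw [SetLike.mem_coe, ← h2]
      exact ⟨x, hx, rfl⟩
    · intro hx
      rw [SetLike.mem_coe, ← h2] at hx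
      obtain ⟨q, hq, he⟩ := hx
      have he' : s * q * s⁻¹ = s * x * s⁻¹ := he
      have : q = x := by
        have := mul_right_cancel he'
        exact mul_left_cancel this
      rw [← this]; exact hq
  · by_contra hne
    obtain ⟨x, hx, z, hz, W₀, -, -, hnot⟩ := S2792.result S Q hQ hne
    apply hnot
    rw [h x hx z hz]
    exact one_mem _

end Cfsg.Agent.H24.HW
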