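import Mathlib
import Cfsg.Agent.H3_Burnside
import Cfsg.Agent.H2_Fusion4

namespace Cfsg.Agent.H24.Meta

open Subgroup Cfsg.Agent

universe u

/-- `A` has a cyclic normal subgroup `B` with `A/B` a cyclic `2`-group -/
def CC (A : Type*) [Group A] : Prop :=
  ∃ B : Subgroup A, B.Normal ∧ IsCyclic B ∧ (∀ a : A, ∃ n : ℕ, a ^ (2 ^ n) ∈ B) ∧
    ∃ g : A, ∀ a : A, ∃ k : ℤ, g ^ k * a ∈ B

theorem cc_of {A : Type*} [Group A] [Finite A] (B : Subgroup A) [B.Normal] (hB : IsCyclic B) (hAB : IsCyclic (A ⧸ B))
    {r : ℕ} (hr : Nat.card (A ⧸ B) = 2 ^ r) : CC A := by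
  refine ⟨B, inferInstance, hB, fun a => ⟨r, ?_⟩, ?_⟩
  · rw [← QuotientGroup.eq_one_iff, QuotientGroup.mk_pow, ← hr]
    exact pow_card_eq_one'
  · obtain ⟨x, hx⟩ := hAB.exists_generator
    obtain ⟨g, rfl⟩ := QuotientGroup.mk_surjective x
    refine ⟨g, fun a => ?_⟩
    obtain ⟨k, hk⟩ := mem_zpowers_iff.1 (hx (QuotientGroup.mk a))
    refine ⟨-k, ?_⟩
    rw [← QuotientGroup.eq_one_iff, QuotientGroup.mk_mul, QuotientGroup.mk_zpow, zpow_neg, hk, inv_mul_cancel]

theorem cc_surj {A A' : Type*} [Group A] [Group A'] (f : A →* A') (hf : Function.Surjective f) (h : CC A) : CC A' := by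
  obtain ⟨B, hBn, hBc, h2, g, hg⟩ := h
  refine ⟨B.map f, hBn.map f hf, ?_, ?_, f g, ?_⟩
  · exact isCyclic_of_surjective (f.subgroupMap B) (f.subgroupMap_surjective B)
  · intro a
    obtain ⟨a, rfl⟩ := hf a
    obtain ⟨n, hn⟩ := h2 a
    exact ⟨n, a ^ (2 ^ n), hn, map_pow f _ _⟩
  · intro a
    obtain ⟨a, rfl⟩ := hf a
    obtain ⟨k, hk⟩ := hg a
    exact ⟨k, g ^ k * a, hk, by rw [map_mul, map_zpow]⟩

theorem cc_inj {A A' : Type*} [Group A] [Group A'] [Finite A] (f : A' →* A) (hf : Function.Injective f) (h : CC A) :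
    CC A' := by
  obtain ⟨B, hBn, hBc, h2, g, hg⟩ := h
  have hAB : IsCyclic (A ⧸ B) := by
    refine ⟨⟨QuotientGroup.mk g⁻¹, fun x => ?_⟩⟩
    obtain ⟨a, rfl⟩ := QuotientGroup.mk_surjective x
    obtain ⟨k, hk⟩ := hg a
    refine mem_zpowers_iff.2 ⟨k, ?_⟩
    rw [← QuotientGroup.eq_one_iff, QuotientGroup.mk_mul, QuotientGroup.mk_zpow] at hk
    rw [QuotientGroup.mk_inv, inv_zpow]
    exact inv_eq_of_mul_eq_one_right hk
  let π : A' →* A ⧸ B := (QuotientGroup.mk' B).comp f
  have hr : IsCyclic π.range := inferInstance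
  obtain ⟨⟨x, ⟨g', rfl⟩⟩, hx⟩ := hr.exists_generator
  refine ⟨B.comap f, inferInstance, ?_, ?_, g', ?_⟩
  · let j : B.comap f →* B := (f.comp (B.comap f).subtype).codRestrict B fun x => x.2
    have hj : Function.Injective j := by
      intro a b hab
      have : f a = f b := congrArg Subtype.val hab
      exact Subtype.ext (hf this)
    exact isCyclic_of_injective j hj
  · intro a
    obtain ⟨n, hn⟩ := h2 (f a)
    refine ⟨n, ?_⟩
    rw [mem_comap, map_pow]; exact hn
  · intro a
    obtain ⟨k, hk⟩ := mem_zpowers_iff.1 (hx ⟨π a, a, rfl⟩)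
    refine ⟨-k, ?_⟩
    have h1 : (π g') ^ k = π a := congrArg Subtype.val hk
    rw [mem_comap, ← QuotientGroup.eq_one_iff]
    have h2 : (QuotientGroup.mk (f (g' ^ (-k) * a)) : A ⧸ B) = π (g' ^ (-k) * a) := rfl
    rw [h2, map_mul, map_zpow, zpow_neg, h1, inv_mul_cancel]

/-- simple case -/
theorem simple_case {G : Type*} [Group G] [Finite G] [IsSimpleGroup G] (A : Subgroup G) {p s : ℕ} (hp : p.Prime)
    (hA : A.index = p ^ s) (h : CC A) : Group.IsSolvable G := by
  by_contra hns
  have key : ∀ (q k : ℕ), q.Prime → ∀ g : G, g ≠ 1 → (centralizer ({g} : Set G)).index = q ^ k → False := by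
    intro q k hq g hg hi
    apply hns
    have h1 := H3.Burnside.class_prime_pow hq hg hi
    haveI : Fact (Nat.card G).Prime := ⟨h1⟩
    have h2 : IsCyclic G := isCyclic_of_prime_card (p := Nat.card G) rfl
    letI := h2.commGroup
    exact Group.isSolvable_of_comm fun a b => mul_comm a b
  have key' : ∀ (q k : ℕ), q.Prime → ∀ g : G, g ≠ 1 → (centralizer ({g} : Set G)).index ∣ q ^ k → False := by
    intro q k hq g hg hi
    obtain ⟨j, -, hj⟩ := (Nat.dvd_prime_pow hq).1 hi
    exact key q j hq g hg hj
  have hnp : ∀ q : ℕ, q.Prime → ¬ IsPGroup q G := by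
    intro q hq hqG
    haveI : Fact q.Prime := ⟨hq⟩
    apply hns
    have := hqG.isNilpotent
    infer_instance
  obtain ⟨B, hBn, hBc, h2, g, hg⟩ := h
  haveI : Fact (Nat.Prime 2) := ⟨Nat.prime_two⟩
  haveI : Fact p.Prime := ⟨hp⟩
  have hAB2 : IsPGroup 2 (A ⧸ B) := by
    intro x
    obtain ⟨a, rfl⟩ := QuotientGroup.mk_surjective x
    obtain ⟨n, hn⟩ := h2 a
    exact ⟨n, by rw [← QuotientGroup.mk_pow, QuotientGroup.eq_one_iff]; exact hn⟩
  obtain ⟨r, hr⟩ := IsPGroup.iff_card.1 hAB2
  have hBidx : B.index = 2 ^ r := hr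
  set B' := B.map A.subtype with hB'
  have hB'A : B' ≤ A := map_subtype_le _
  have hB'c : IsCyclic B' := isCyclic_of_surjective (A.subtype.subgroupMap B) (A.subtype.subgroupMap_surjective B)
  have hB'i : B'.index = 2 ^ r * p ^ s := by
    rw [← relIndex_mul_index hB'A, hA]
    congr 1
    rw [relIndex, subgroupOf, hB', comap_map_eq_self_of_injective A.subtype_injective, hBidx]
  have hB'cent : ∀ b ∈ B', B' ≤ centralizer ({b} : Set G) := by
    intro b hb x hx
    rw [mem_centralizer_singleton_iff]
    letI := hB'c.commGroup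
    have := mul_comm (⟨x, hx⟩ : B') ⟨b, hb⟩
    exact congrArg Subtype.val this
  have hB'n : ∀ b ∈ B', ∀ a ∈ A, a * b * a⁻¹ ∈ B' := by
    rintro _ ⟨b, hb, rfl⟩ a ha
    exact ⟨⟨a, ha⟩ * b * ⟨a, ha⟩⁻¹, hBn.conj_mem b hb _, rfl⟩
  by_cases hp2 : p = 2
  · subst hp2
    by_cases hB1 : B' = ⊥
    · apply hnp 2 Nat.prime_two
      apply IsPGroup.of_card (n := r + s)
      rw [← Subgroup.card_mul_index B', hB1, Subgroup.card_bot, one_mul, ← hB1, hB'i, pow_add]
    · obtain ⟨⟨b, hb⟩, hb1'⟩ := Subgroup.ne_bot_iff_exists_ne_one.1 hB1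
      have hb1 : b ≠ 1 := fun h => hb1' (Subtype.ext h)
      refine key' 2 (r + s) Nat.prime_two b hb1 ?_
      rw [pow_add, ← hB'i]
      exact index_dvd_of_le (hB'cent b hb)
  · -- `p` odd
    have hodd : ¬ 2 ∣ A.index := by
      rw [hA]
      intro hd
      exact hp2 ((Nat.prime_dvd_prime_iff_eq Nat.prime_two hp).1 (Nat.prime_two.dvd_of_dvd_pow hd)).symm
    by_cases hBe : 2 ∣ Nat.card B'
    · obtain ⟨b, hb⟩ := exists_prime_orderOf_dvd_card' (G := B') 2 hBe
      have hb1 : (b : G) ≠ 1 := by
        intro h
        have : b = 1 := Subtype.ext h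
        rw [this, orderOf_one] at hb
        exact absurd hb (by norm_num)
      refine key' p s hp b hb1 ?_
      rw [← hA]
      apply index_dvd_of_le
      intro a ha
      rw [mem_centralizer_singleton_iff]
      have h1 : a * b * a⁻¹ ∈ B' := hB'n b b.2 a ha
      have h3 : orderOf (⟨a * b * a⁻¹, h1⟩ : B') = 2 := by
        rw [Subgroup.orderOf_mk, ← hb, ← Subgroup.orderOf_coe]
        exact orderOf_injective (MulAut.conj a).toMonoidHom (MulAut.conj a).injective (b : G)
      have h4 : (⟨a * b * a⁻¹, h1⟩ : B') = b := by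
        classical
        letI := Fintype.ofFinite B'
        have := IsCyclic.card_orderOf_eq_totient (α := B') (d := 2) (by rw [← Nat.card_eq_fintype_card]; exact hBe)
        rw [Nat.totient_two] at this
        rw [Finset.card_eq_one] at this
        obtain ⟨x, hx⟩ := this
        have i1 : (⟨a * b * a⁻¹, h1⟩ : B') ∈ ({x} : Finset B') := by
          rw [← hx]; simp [h3]
        have i2 : b ∈ ({x} : Finset B') := by rw [← hx]; simp [hb]
        rw [Finset.mem_singleton] at i1 i2
        rw [i1, i2]
      have h5 : a * b * a⁻¹ = b := congrArg Subtype.val h4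
      rwa [mul_inv_eq_iff_eq_mul] at h5
    · -- Sylow 2-subgroups are cyclic
      by_cases hG2 : 2 ∣ Nat.card G
      · obtain ⟨T⟩ : Nonempty (Sylow 2 A) := inferInstance
        set S := (T : Subgroup A).map A.subtype with hS
        have hSp : IsPGroup 2 S := T.isPGroup'.map _
        have hSi : ¬ 2 ∣ S.index := by
          have h3 : S.index = (T : Subgroup A).index * A.index := by
            rw [← relIndex_mul_index (show S ≤ A from map_subtype_le _)]
            congr 1
            rw [relIndex, subgroupOf, hS, comap_map_eq_self_of_injective A.subtype_injective]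
          rw [h3, Nat.Prime.dvd_mul Nat.prime_two]
          rintro (h | h)
          · exact T.not_dvd_index h
          · exact hodd h
        let P : Sylow 2 G := hSp.toSylow hSi
        have hPS : (P : Subgroup G) = S := rfl
        have hPc : IsCyclic P := by
          -- `T` injects in `A/B`
          have hTc : IsCyclic (T : Subgroup A) := by
            have hAB : IsCyclic (A ⧸ B) := by
              refine ⟨⟨QuotientGroup.mk g⁻¹, fun x => ?_⟩⟩
              obtain ⟨a, rfl⟩ := QuotientGroup.mk_surjective x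
              obtain ⟨k, hk⟩ := hg a
              refine mem_zpowers_iff.2 ⟨k, ?_⟩
              rw [← QuotientGroup.eq_one_iff, QuotientGroup.mk_mul, QuotientGroup.mk_zpow] at hk
              rw [QuotientGroup.mk_inv, inv_zpow]
              exact inv_eq_of_mul_eq_one_right hk
            have hinj : Function.Injective ((QuotientGroup.mk' B).comp (T : Subgroup A).subtype) := by
              rw [injective_iff_map_eq_one]
              intro t ht
              have ht' : (t : A) ∈ B := by
                rw [← QuotientGroup.eq_one_iff]; exact ht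
              obtain ⟨k, hk⟩ := T.isPGroup' t
              have h5 : (t : A) ^ 2 ^ k = 1 := congrArg Subtype.val hk
              have h6 : Nat.card B' = Nat.card B := Subgroup.card_map_of_injective A.subtype_injective
              have h7 : orderOf (t : A) ∣ Nat.card B := by
                have := orderOf_dvd_natCard (⟨t, ht'⟩ : B)
                rwa [Subgroup.orderOf_mk] at this
              have h8 : (Nat.card B).Coprime (2 ^ k) := by
                rw [← h6]
                exact Nat.Coprime.pow_right _ ((Nat.Prime.coprime_iff_not_dvd Nat.prime_two).2 hBe).symm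
              have h9 := Nat.dvd_gcd h7 (orderOf_dvd_of_pow_eq_one h5)
              rw [h8] at h9
              have := orderOf_eq_one_iff.1 (Nat.dvd_one.1 h9)
              exact Subtype.ext this
            exact isCyclic_of_injective _ hinj
          have : IsCyclic S := isCyclic_of_surjective (A.subtype.subgroupMap (T : Subgroup A)) (A.subtype.subgroupMap_surjective _)
          exact this
        have hmin : (Nat.card G).minFac = 2 := (Nat.minFac_eq_two_iff _).2 hG2
        have hc := IsCyclic.isComplement' hmin hPc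
        rcases (inferInstance : (MonoidHom.transferSylow P (hPc.normalizer_le_centralizer hmin)).ker.Normal).eq_bot_or_eq_top with h | h
        · rw [h] at hc
          have h3 := hc.card_mul
          rw [Subgroup.card_bot, one_mul] at h3
          apply hnp 2 Nat.prime_two
          have h4 : IsPGroup 2 (⊤ : Subgroup G) := by
            rw [← Subgroup.eq_top_of_card_eq _ h3]; exact P.isPGroup'
          exact h4.of_equiv Subgroup.topEquiv
        · rw [h] at hc
          have h5 : Nat.card P = 1 := by
            have := hc.card_mul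
            rw [Subgroup.card_top] at this
            have hpos : 0 < Nat.card G := Nat.card_pos
            nlinarith
          have h6 : (P : Subgroup G) ≠ ⊥ := P.ne_bot_of_dvd_card hG2
          exact h6 (Subgroup.card_eq_one.1 h5)
      · -- odd order
        have hr0 : r = 0 := by
          by_contra hr0
          apply hG2
          have h3 : B'.index ∣ Nat.card G := Subgroup.index_dvd_card B'
          rw [hB'i] at h3
          exact ((dvd_pow_self 2 hr0).trans (dvd_mul_right _ _)).trans h3
        rw [hr0, pow_zero, one_mul] at hB'i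
        by_cases hB1 : B' = ⊥
        · apply hnp p hp
          apply IsPGroup.of_card (n := s)
          rw [← Subgroup.card_mul_index B', hB1, Subgroup.card_bot, one_mul, ← hB1, hB'i]
        · obtain ⟨⟨b, hb⟩, hb1'⟩ := Subgroup.ne_bot_iff_exists_ne_one.1 hB1
          have hb1 : b ≠ 1 := fun h => hb1' (Subtype.ext h)
          refine key' p s hp b hb1 ?_
          rw [← hB'i]
          exact index_dvd_of_le (hB'cent b hb)

theorem main : ∀ (n : ℕ) (G : Type u) [Group G] [Finite G] (A : Subgroup G) (p s : ℕ), Nat.card G = n → p.Prime →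
    A.index = p ^ s → CC A → Group.IsSolvable G := by
  intro n
  induction n using Nat.strong_induction_on with
  | _ n ih =>
  intro G _ _ A p s hn hp hA h
  by_cases hN : ∃ N : Subgroup G, N.Normal ∧ N ≠ ⊥ ∧ N ≠ ⊤
  · obtain ⟨N, hNn, hNb, hNt⟩ := hN
    have h1 : Group.IsSolvable N := by
      have hd : (A.subgroupOf N).index ∣ p ^ s := by
        rw [← hA]; exact Cfsg.Agent.H2.Card.relIndex_dvd_index_of_normal_right A N
      obtain ⟨t, -, ht⟩ := (Nat.dvd_prime_pow hp).1 hd
      refine ih (Nat.card N) ?_ N (A.subgroupOf N) p t rfl hp ht ?_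
      · rw [← hn]
        rcases (Nat.le_of_dvd Nat.card_pos N.card_subgroup_dvd_card).lt_or_eq with h1 | h1
        · exact h1
        · exact absurd (Subgroup.eq_top_of_card_eq _ h1) hNt
      · let j : A.subgroupOf N →* A := (N.subtype.comp (A.subgroupOf N).subtype).codRestrict A fun x => x.2
        have hj : Function.Injective j := by
          intro a b hab
          have := congrArg Subtype.val hab
          exact Subtype.ext (Subtype.ext this)
        exact cc_inj j hj h
    have h2 : Group.IsSolvable (G ⧸ N) := by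
      have hd : (A.map (QuotientGroup.mk' N)).index ∣ p ^ s := by
        rw [← hA]; exact index_map_dvd _ (QuotientGroup.mk'_surjective N)
      obtain ⟨t, -, ht⟩ := (Nat.dvd_prime_pow hp).1 hd
      refine ih (Nat.card (G ⧸ N)) ?_ (G ⧸ N) (A.map (QuotientGroup.mk' N)) p t rfl hp ht ?_
      · rw [← hn, ← Subgroup.card_mul_index N]
        have h1 : 1 < Nat.card N := (one_lt_card_iff_ne_bot N).2 hNb
        have h2 : 0 < N.index := Nat.pos_of_ne_zero N.index_ne_zero_of_finite
        have h3 : Nat.card (G ⧸ N) = N.index := rfl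
        rw [h3]
        nlinarith
      · exact cc_surj _ ((QuotientGroup.mk' N).subgroupMap_surjective A) h
    exact Group.isSolvable_of_ker_le_range N.subtype (QuotientGroup.mk' N) (by
      rw [QuotientGroup.ker_mk', range_subtype])
  · push Not at hN
    by_cases hnt : Nontrivial G
    · haveI : IsSimpleGroup G := ⟨fun N hNn => by
        by_cases hb : N = ⊥
        · exact Or.inl hb
        · exact Or.inr (hN N hNn hb)⟩
      exact simple_case A hp hA h
    · rw [not_nontrivial_iff_subsingleton] at hnt
      exact Group.isSolvable_of_comm fun a b => Subsingleton.elim _ _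

end Cfsg.Agent.H24.Meta
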