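import Mathlib

/-! Order types: refined counting of solutions of `x ^ n = 1` in towers of semidirect products. -/

namespace Cfsg.Agent.H24.OType

/-- `w n h` counts the `g` with `g ^ n = 1` over `h : P` in some finite solvable `G → P`. -/
def Rl (P : Type) [Group P] (w : ℕ → P → ℕ) : Prop :=
  ∃ (G : Type) (_ : Group G) (_ : Finite G) (π : G →* P), Group.IsSolvable G ∧
    ∀ n h, Nat.card {g : G // g ^ n = 1 ∧ π g = h} = w n h

theorem rl_base (P : Type) [Group P] [Finite P] (hs : Group.IsSolvable P)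
    (b : ℕ → P → Bool) (hb : ∀ n h, h ^ n = 1 ↔ b n h = true) :
    Rl P (fun n h => if b n h then 1 else 0) := by
  refine ⟨P, inferInstance, inferInstance, MonoidHom.id P, hs, fun n h => ?_⟩
  change _ = (if b n h = true then 1 else 0)
  by_cases hh : b n h = true
  · rw [if_pos hh, Nat.card_eq_one_iff_unique]
    refine ⟨⟨fun a b => Subtype.ext (a.2.2.trans b.2.2.symm)⟩, ⟨⟨h, (hb n h).mpr hh, rfl⟩⟩⟩
  · rw [if_neg hh, Nat.card_eq_zero]
    left
    refine ⟨fun a => hh ((hb n h).mp ?_)⟩
    have h1 := a.2.1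
    have h2 : a.1 = h := a.2.2
    rwa [h2] at h1

section
variable {G : Type} [Group G] {m : ℕ} (χ : G →* (ZMod m)ˣ)

/-- scalar action -/
def act (m : ℕ) : (ZMod m)ˣ →* MulAut (Multiplicative (ZMod m)) :=
  (MulAutMultiplicative (ZMod m)).symm.toMonoidHom.comp (DistribMulAction.toAddAut (ZMod m)ˣ (ZMod m))

theorem act_apply (u : (ZMod m)ˣ) (v : Multiplicative (ZMod m)) :
    (act m u v).toAdd = (u : ZMod m) * v.toAdd := rfl

theorem pow_formula (x : Multiplicative (ZMod m) ⋊[(act m).comp χ] G) (n : ℕ) :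
    (x ^ n).right = x.right ^ n ∧
      (x ^ n).left.toAdd = (∑ j ∈ Finset.range n, ((χ x.right : (ZMod m)ˣ) : ZMod m) ^ j) * x.left.toAdd := by
  induction n with
  | zero => simp
  | succ n ih =>
    rw [pow_succ, SemidirectProduct.mul_right, SemidirectProduct.mul_left, ih.1, pow_succ]
    refine ⟨rfl, ?_⟩
    rw [toAdd_mul, ih.2, Finset.sum_range_succ, add_mul]
    congr 1
    change ((χ (x.right ^ n) : (ZMod m)ˣ) : ZMod m) * x.left.toAdd = _
    rw [map_pow]
    push_cast
    rfl

end

theorem card_ker {m : ℕ} [Fact m.Prime] (c : ZMod m) (n : ℕ) (hc : c ^ n = 1) :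
    Nat.card {v : ZMod m // (∑ j ∈ Finset.range n, c ^ j) * v = 0} =
      if c = 1 ∧ ¬ m ∣ n then 1 else m := by
  have hall : (∑ j ∈ Finset.range n, c ^ j) = 0 →
      Nat.card {v : ZMod m // (∑ j ∈ Finset.range n, c ^ j) * v = 0} = m := by
    intro h
    rw [h]
    have : Nat.card {v : ZMod m // (0 : ZMod m) * v = 0} = Nat.card (ZMod m) :=
      Nat.card_congr ⟨fun v => v.1, fun v => ⟨v, zero_mul v⟩, fun v => rfl, fun v => rfl⟩
    rw [this, Nat.card_zmod]
  split_ifs with h
  · obtain ⟨rfl, hmn⟩ := h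
    have hn : (n : ZMod m) ≠ 0 := by rwa [Ne, ZMod.natCast_eq_zero_iff]
    rw [Nat.card_eq_one_iff_unique]
    refine ⟨⟨fun a b => ?_⟩, ⟨⟨0, mul_zero _⟩⟩⟩
    have key : ∀ a : {v : ZMod m // (∑ j ∈ Finset.range n, (1 : ZMod m) ^ j) * v = 0}, a.1 = 0 := by
      intro a
      have := a.2
      simp only [one_pow, Finset.sum_const, Finset.card_range, nsmul_eq_mul, mul_one] at this
      exact (mul_eq_zero.mp this).resolve_left hn
    exact Subtype.ext ((key a).trans (key b).symm)
  · apply hall
    by_cases h1 : c = 1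
    · subst h1
      have : m ∣ n := by
        by_contra h2
        exact h ⟨rfl, h2⟩
      simp only [one_pow, Finset.sum_const, Finset.card_range, nsmul_eq_mul, mul_one]
      rwa [ZMod.natCast_eq_zero_iff]
    · have h2 : (∑ j ∈ Finset.range n, c ^ j) * (c - 1) = 0 := by
        rw [geom_sum_mul, hc, sub_self]
      exact (mul_eq_zero.mp h2).resolve_right (sub_ne_zero.mpr h1)

theorem rl_step {P : Type} [Group P] {w : ℕ → P → ℕ} (hw : Rl P w) (m : ℕ) [Fact m.Prime]
    (χ : P →* (ZMod m)ˣ) (k : P → Bool) (hk : ∀ h, χ h = 1 ↔ k h = true) :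
    Rl P (fun n h => w n h * if k h && !(decide (m ∣ n)) then 1 else m) := by
  obtain ⟨G, iG, fG, π, hsol, hcount⟩ := hw
  let S := Multiplicative (ZMod m) ⋊[(act m).comp (χ.comp π)] G
  have hfin : Finite S := Finite.of_equiv _ SemidirectProduct.equivProd.symm
  have hsolS : Group.IsSolvable S := by
    have : Group.IsSolvable (Multiplicative (ZMod m)) := Group.isSolvable_of_comm (fun a b => mul_comm a b)
    exact Group.isSolvable_of_ker_le_range (SemidirectProduct.inl : Multiplicative (ZMod m) →* S)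
      (SemidirectProduct.rightHom : S →* G) (by rw [SemidirectProduct.range_inl_eq_ker_rightHom])
  refine ⟨S, inferInstance, hfin, π.comp SemidirectProduct.rightHom, hsolS, fun n h => ?_⟩
  let c : ZMod m := ((χ h : (ZMod m)ˣ) : ZMod m)
  have e : {x : S // x ^ n = 1 ∧ (π.comp SemidirectProduct.rightHom) x = h} ≃
      {g : G // g ^ n = 1 ∧ π g = h} × {v : ZMod m // (∑ j ∈ Finset.range n, c ^ j) * v = 0} :=
    { toFun := fun x => ⟨⟨x.1.right, by
          rw [← (pow_formula (χ.comp π) x.1 n).1, x.2.1]; rfl, x.2.2⟩, ⟨x.1.left.toAdd, by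
          have h1 := (pow_formula (χ.comp π) x.1 n).2
          have h2 : (χ.comp π) x.1.right = χ h := congrArg χ x.2.2
          rw [h2, x.2.1] at h1
          exact h1.symm⟩⟩
      invFun := fun y => ⟨⟨Multiplicative.ofAdd y.2.1, y.1.1⟩, by
          let x : S := ⟨Multiplicative.ofAdd y.2.1, y.1.1⟩
          have h1 := pow_formula (χ.comp π) x n
          have h2 : (χ.comp π) x.right = χ h := congrArg χ y.1.2.2
          rw [h2] at h1
          apply SemidirectProduct.ext
          · exact Multiplicative.toAdd.injective (h1.2.trans y.2.2)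
          · exact h1.1.trans y.1.2.1, y.1.2.2⟩
      left_inv := fun x => rfl
      right_inv := fun y => rfl }
  rw [Nat.card_congr e, Nat.card_prod, hcount]
  change w n h * _ = w n h * _
  rcases Nat.eq_zero_or_pos (w n h) with h0 | h0
  · rw [h0, zero_mul, zero_mul]
  · congr 1
    have hne : Nonempty {g : G // g ^ n = 1 ∧ π g = h} := by
      rw [← hcount] at h0
      exact (Nat.card_pos_iff.mp h0).1
    obtain ⟨g, hg1, hg2⟩ := hne
    have hc : c ^ n = 1 := by
      simp only [c]
      rw [← hg2, ← Units.val_pow_eq_pow_val, ← map_pow, ← map_pow, hg1, map_one, map_one]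
      rfl
    rw [card_ker c n hc]
    have h1 : c = 1 ↔ k h = true := by
      rw [← hk]
      exact Units.val_eq_one
    by_cases hkh : k h = true
    · by_cases hmn : m ∣ n
      · simp [hkh, hmn]
      · simp [hkh, hmn, h1.mpr hkh]
    · have h2 : ¬ c = 1 := fun h3 => hkh (h1.mp h3)
      simp [hkh, h2]

/-- `F n` counts the solutions of `g ^ n = 1`. -/
def Sol (F : ℕ → ℕ) : Prop :=
  ∃ (G : Type) (_ : Group G) (_ : Finite G), Group.IsSolvable G ∧ ∀ n, Nat.card {g : G // g ^ n = 1} = F n

/-- non-solvable version. -/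
def NSol (F : ℕ → ℕ) : Prop :=
  ∃ (G : Type) (_ : Group G) (_ : Finite G), ¬ Group.IsSolvable G ∧ ∀ n, Nat.card {g : G // g ^ n = 1} = F n

theorem Rl.sol {P : Type} [Group P] [Fintype P] {w : ℕ → P → ℕ} (hw : Rl P w) :
    Sol (fun n => ∑ h : P, w n h) := by
  obtain ⟨G, iG, fG, π, hsol, hcount⟩ := hw
  refine ⟨G, iG, fG, hsol, fun n => ?_⟩
  have e : {g : G // g ^ n = 1} ≃ Σ h : P, {g : G // g ^ n = 1 ∧ π g = h} :=
    { toFun := fun g => ⟨π g.1, g.1, g.2, rfl⟩
      invFun := fun x => ⟨x.2.1, x.2.2.1⟩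
      left_inv := fun g => rfl
      right_inv := by
        rintro ⟨h, g, hg, rfl⟩
        rfl }
  rw [Nat.card_congr e, Nat.card_sigma]
  exact Finset.sum_congr rfl (fun h _ => hcount n h)

theorem card_prod_pow {G H : Type} [Group G] [Group H] (n : ℕ) :
    Nat.card {g : G × H // g ^ n = 1} = Nat.card {g : G // g ^ n = 1} * Nat.card {h : H // h ^ n = 1} := by
  rw [← Nat.card_prod]
  exact Nat.card_congr
    { toFun := fun x => ⟨⟨x.1.1, congrArg Prod.fst x.2⟩, ⟨x.1.2, congrArg Prod.snd x.2⟩⟩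
      invFun := fun y => ⟨(y.1.1, y.2.1), Prod.ext y.1.2 y.2.2⟩
      left_inv := fun x => rfl
      right_inv := fun y => rfl }

theorem Sol.mul {F F' : ℕ → ℕ} (h : Sol F) (h' : Sol F') : Sol (fun n => F n * F' n) := by
  obtain ⟨G, iG, fG, hs, hc⟩ := h
  obtain ⟨G', iG', fG', hs', hc'⟩ := h'
  refine ⟨G × G', inferInstance, inferInstance, ?_, fun n => ?_⟩
  · exact Group.isSolvable_of_ker_le_range (MonoidHom.inl G G') (MonoidHom.snd G G') (by
      intro x hx
      exact ⟨x.1, Prod.ext rfl (by simpa using hx.symm)⟩)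
  · rw [card_prod_pow, hc, hc']

theorem Sol.one : Sol (fun _ => 1) := by
  refine ⟨Unit, inferInstance, inferInstance, Group.isSolvable_of_comm (fun a b => rfl), fun n => ?_⟩
  rw [Nat.card_eq_one_iff_unique]
  exact ⟨⟨fun a b => Subtype.ext rfl⟩, ⟨⟨1, rfl⟩⟩⟩

theorem Sol.pow {F : ℕ → ℕ} (h : Sol F) (k : ℕ) : Sol (fun n => F n ^ k) := by
  induction k with
  | zero => simpa using Sol.one
  | succ k ih =>
    have := ih.mul h
    simpa [pow_succ] using this

theorem NSol.mul {F F' : ℕ → ℕ} (h : NSol F) (h' : Sol F') : NSol (fun n => F n * F' n) := by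
  obtain ⟨G, iG, fG, hs, hc⟩ := h
  obtain ⟨G', iG', fG', hs', hc'⟩ := h'
  refine ⟨G × G', inferInstance, inferInstance, ?_, fun n => ?_⟩
  · intro hh
    exact hs (Group.isSolvable_of_surjective (f := MonoidHom.fst G G') Prod.fst_surjective)
  · rw [card_prod_pow, hc, hc']

theorem NSol.mul' {F F' : ℕ → ℕ} (h : NSol F) (h' : NSol F') : NSol (fun n => F n * F' n) := by
  obtain ⟨G, iG, fG, hs, hc⟩ := h
  obtain ⟨G', iG', fG', hs', hc'⟩ := h'
  refine ⟨G × G', inferInstance, inferInstance, ?_, fun n => ?_⟩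
  · intro hh
    exact hs (Group.isSolvable_of_surjective (f := MonoidHom.fst G G') Prod.fst_surjective)
  · rw [card_prod_pow, hc, hc']

/-- equality on divisors of `E` and exponent dividing `E` suffices. -/
theorem order_type_eq {G H : Type} [Group G] [Finite G] [Group H] [Finite H] (E : ℕ) (hE : 0 < E)
    (F : ℕ → ℕ) (hG : ∀ n, n ∣ E ∨ n = 0 → Nat.card {g : G // g ^ n = 1} = F n)
    (hH : ∀ n, n ∣ E ∨ n = 0 → Nat.card {g : H // g ^ n = 1} = F n) (hF : F 0 = F E) (n : ℕ) :
    Nat.card {g : G // orderOf g = n} = Nat.card {h : H // orderOf h = n} := by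
  have key : ∀ (K : Type) [Group K] [Finite K], (∀ n, n ∣ E ∨ n = 0 → Nat.card {g : K // g ^ n = 1} = F n) →
      (∀ g : K, g ^ E = 1) := by
    intro K _ _ hK g
    have h1 : Nat.card {g : K // g ^ E = 1} = Nat.card K := by
      rw [hK E (Or.inl dvd_rfl), ← hF, ← hK 0 (Or.inr rfl)]
      exact Nat.card_congr ⟨fun x => x.1, fun x => ⟨x, pow_zero x⟩, fun x => rfl, fun x => rfl⟩
    have h2 : Function.Surjective (Subtype.val : {g : K // g ^ E = 1} → K) := by
      have : Function.Bijective (Subtype.val : {g : K // g ^ E = 1} → K) :=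
        (Nat.bijective_iff_injective_and_card _).mpr ⟨Subtype.val_injective, h1⟩
      exact this.2
    obtain ⟨x, rfl⟩ := h2 g
    exact x.2
  have hGE := key G hG
  have hHE := key H hH
  induction n using Nat.strong_induction_on with
  | _ n ih =>
    rcases Nat.eq_zero_or_pos n with h0 | h0
    · subst h0
      have : ∀ (K : Type) [Group K] [Finite K], Nat.card {g : K // orderOf g = 0} = 0 := by
        intro K _ _
        rw [Nat.card_eq_zero]
        left
        exact ⟨fun x => (orderOf_pos x.1).ne' x.2⟩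
      rw [this G, this H]
    by_cases hn : n ∣ E
    · have hsum : ∀ (K : Type) [Group K] [Finite K], Nat.card {g : K // g ^ n = 1} =
          ∑ d ∈ n.divisors, Nat.card {g : K // orderOf g = d} := by
        intro K _ _
        have e : {g : K // g ^ n = 1} ≃ Σ d : n.divisors, {g : K // orderOf g = (d : ℕ)} :=
          { toFun := fun g => ⟨⟨orderOf g.1, Nat.mem_divisors.mpr ⟨orderOf_dvd_of_pow_eq_one g.2, h0.ne'⟩⟩, g.1, rfl⟩
            invFun := fun x => ⟨x.2.1, orderOf_dvd_iff_pow_eq_one.mp (by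
              rw [x.2.2]; exact (Nat.mem_divisors.mp x.1.2).1)⟩
            left_inv := fun g => rfl
            right_inv := by
              rintro ⟨⟨d, hd⟩, ⟨g, hg⟩⟩
              have hg' : orderOf g = d := hg
              subst hg'
              rfl }
        rw [Nat.card_congr e, Nat.card_sigma]
        rw [Finset.sum_coe_sort n.divisors (fun d => Nat.card {g : K // orderOf g = d})]
      have h1 := hsum G
      have h2 := hsum H
      rw [hG n (Or.inl hn)] at h1
      rw [hH n (Or.inl hn)] at h2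
      rw [← Nat.cons_self_properDivisors h0.ne', Finset.sum_cons] at h1 h2
      have h3 : ∑ d ∈ n.properDivisors, Nat.card {g : G // orderOf g = d} =
          ∑ d ∈ n.properDivisors, Nat.card {g : H // orderOf g = d} :=
        Finset.sum_congr rfl (fun d hd => ih d (Nat.mem_properDivisors.mp hd).2)
      omega
    · have : ∀ (K : Type) [Group K] [Finite K], (∀ g : K, g ^ E = 1) → Nat.card {g : K // orderOf g = n} = 0 := by
        intro K _ _ hK
        rw [Nat.card_eq_zero]
        left
        exact ⟨fun x => hn (x.2 ▸ orderOf_dvd_of_pow_eq_one (hK x.1))⟩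
      rw [this G hGE, this H hHE]

end Cfsg.Agent.H24.OType
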