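import Mathlib
import Cfsg.Agent.H24_OType2

/-! Order statistics of two groups of order 168. -/

namespace Cfsg.Agent.H24.OType
open A3

/-- Number of solutions from the order statistics. -/
theorem count_of_orders {G : Type} [Group G] [Finite G] (S : Finset ℕ) (N : ℕ → ℕ)
    (hS : ∀ g : G, orderOf g ∈ S) (hN : ∀ k ∈ S, Nat.card {g : G // orderOf g = k} = N k) (n : ℕ) :
    Nat.card {g : G // g ^ n = 1} = ∑ k ∈ S, if k ∣ n then N k else 0 := by
  have e : {g : G // g ^ n = 1} ≃ Σ k : S, {g : G // orderOf g = (k : ℕ) ∧ (k : ℕ) ∣ n} :=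
    { toFun := fun g => ⟨⟨orderOf g.1, hS g.1⟩, g.1, rfl, orderOf_dvd_of_pow_eq_one g.2⟩
      invFun := fun x => ⟨x.2.1, orderOf_dvd_iff_pow_eq_one.mp (by rw [x.2.2.1]; exact x.2.2.2)⟩
      left_inv := fun g => rfl
      right_inv := by
        rintro ⟨⟨k, hk⟩, ⟨g, hg, hd⟩⟩
        have hg' : orderOf g = k := hg
        subst hg'
        rfl }
  rw [Nat.card_congr e, Nat.card_sigma, Finset.sum_coe_sort S (fun k => Nat.card {g : G // orderOf g = k ∧ k ∣ n})]
  refine Finset.sum_congr rfl (fun k hk => ?_)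
  split_ifs with h
  · rw [← hN k hk]
    exact Nat.card_congr ⟨fun x => ⟨x.1, x.2.1⟩, fun x => ⟨x.1, x.2, h⟩, fun _ => rfl, fun _ => rfl⟩
  · rw [Nat.card_eq_zero]
    exact Or.inl ⟨fun x => h x.2.2⟩

theorem ord_aux {M : Type*} [Monoid M] [DecidableEq M] (x : M)
    (h : (if x = 1 then 1 else if x ^ 2 = 1 then 2 else if x ^ 3 = 1 then 3 else
      if x ^ 4 = 1 then 4 else if x ^ 6 = 1 then 6 else if x ^ 7 = 1 then 7 else 0) ≠ 0) :
    orderOf x = (if x = 1 then 1 else if x ^ 2 = 1 then 2 else if x ^ 3 = 1 then 3 else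
      if x ^ 4 = 1 then 4 else if x ^ 6 = 1 then 6 else if x ^ 7 = 1 then 7 else 0) := by
  have hne : ∀ {k}, x ^ k ≠ 1 → ∀ d, d ∣ k → orderOf x ≠ d := by
    intro k hk d hd h2
    exact hk (orderOf_dvd_iff_pow_eq_one.mp (h2 ▸ hd))
  split_ifs at h ⊢ with c1 c2 c3 c4 c5 c6
  · rw [c1, orderOf_one]
  · exact orderOf_eq_prime c2 c1
  · have : Fact (Nat.Prime 3) := ⟨by norm_num⟩
    exact orderOf_eq_prime c3 c1
  · have hd := orderOf_dvd_of_pow_eq_one c4
    have h2 := hne c2 1 (by norm_num)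
    have h3 := hne c2 2 (by norm_num)
    have : orderOf x ∈ Nat.divisors 4 := Nat.mem_divisors.mpr ⟨hd, by norm_num⟩
    have e : Nat.divisors 4 = {1, 2, 4} := by decide
    rw [e] at this
    simp only [Finset.mem_insert, Finset.mem_singleton] at this
    tauto
  · have hd := orderOf_dvd_of_pow_eq_one c5
    have h2 := hne c2 1 (by norm_num)
    have h3 := hne c2 2 (by norm_num)
    have h4 := hne c3 3 (by norm_num)
    have : orderOf x ∈ Nat.divisors 6 := Nat.mem_divisors.mpr ⟨hd, by norm_num⟩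
    have e : Nat.divisors 6 = {1, 2, 3, 6} := by decide
    rw [e] at this
    simp only [Finset.mem_insert, Finset.mem_singleton] at this
    tauto
  · have : Fact (Nat.Prime 7) := ⟨by norm_num⟩
    exact orderOf_eq_prime c6 c1
  · exact absurd rfl h

theorem ordB_spec (x : A3) (h : ordB x ≠ 0) : orderOf x = ordB x := by
  have e1 : x * x = x ^ 2 := (sq x).symm
  have e2 : x * x * x = x ^ 3 := by rw [e1, ← pow_succ]
  have e3 : (x * x) * (x * x) = x ^ 4 := by rw [e1, ← pow_add]
  have e4 : (x * x * x) * (x * x * x) = x ^ 6 := by rw [e2, ← pow_add]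
  have e5 : (x * x * x) * (x * x * x) * x = x ^ 7 := by rw [e4, ← pow_succ]
  have key : ordB x = (if x = 1 then 1 else if x ^ 2 = 1 then 2 else if x ^ 3 = 1 then 3 else
      if x ^ 4 = 1 then 4 else if x ^ 6 = 1 then 6 else if x ^ 7 = 1 then 7 else 0) := by
    unfold ordB
    rw [e5, e4, e3, e2, e1]
  rw [key] at h ⊢
  exact ord_aux x h

/-- counting elements of a group of units by computed order -/
theorem card_orderOf_eq (G : Subgroup A3ˣ) (p : A3 → Prop) [DecidablePred p]
    (hp : ∀ u : A3ˣ, u ∈ G ↔ p u) (k : ℕ) (hk : k ≠ 0) (hord : ∀ u : A3ˣ, u ∈ G → ordB (u : A3) ≠ 0) :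
    Nat.card {g : G // orderOf g = k} = (Finset.univ.filter (fun x : A3 => p x ∧ ordB x = k)).card := by
  rw [← Fintype.card_subtype, ← Nat.card_eq_fintype_card]
  refine Nat.card_congr
    { toFun := fun g => ⟨((g.1 : A3ˣ) : A3), (hp _).mp g.1.2, ?_⟩
      invFun := fun x => ⟨⟨Units.ofPowEqOne x.1 k (by
        have h1 := ordB_spec x.1 (by rw [x.2.2]; exact hk)
        rw [x.2.2] at h1
        exact orderOf_dvd_iff_pow_eq_one.mp (by rw [h1])) hk, (hp _).mpr (by rw [Units.val_ofPowEqOne]; exact x.2.1)⟩, ?_⟩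
      left_inv := fun g => by
        apply Subtype.ext
        apply Subtype.ext
        exact Units.ext rfl
      right_inv := fun x => rfl }
  · have h1 := ordB_spec ((g.1 : A3ˣ) : A3) (hord _ g.1.2)
    rw [← h1, orderOf_units, Subgroup.orderOf_coe]
    exact g.2
  · rw [← Subgroup.orderOf_coe, ← orderOf_units, Units.val_ofPowEqOne]
    rw [ordB_spec x.1 (by rw [x.2.2]; exact hk)]
    exact x.2.2

/-- index types -/
abbrev V3 := ZMod 2 × ZMod 2 × ZMod 2
/-- 3x3 matrices -/
abbrev M9 := V3 × V3 × V3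

/-- assemble -/
def mk (M : M9) (v : V3) : A3 :=
  { m00 := M.1.1, m01 := M.1.2.1, m02 := M.1.2.2, m10 := M.2.1.1, m11 := M.2.1.2.1, m12 := M.2.1.2.2,
    m20 := M.2.2.1, m21 := M.2.2.2.1, m22 := M.2.2.2.2, v0 := v.1, v1 := v.2.1, v2 := v.2.2 }

/-- assembling equivalence -/
def mkE : M9 × V3 ≃ A3 where
  toFun q := mk q.1 q.2
  invFun x := (((x.m00, x.m01, x.m02), (x.m10, x.m11, x.m12), (x.m20, x.m21, x.m22)), (x.v0, x.v1, x.v2))
  left_inv _ := rfl
  right_inv _ := rfl

/-- fast evaluation -/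
theorem card_filter_fast (g : M9 → Bool) (p : A3 → Prop) [DecidablePred p] (o : A3 → Prop) [DecidablePred o]
    (hp : ∀ M v, p (mk M v) ↔ g M = true) :
    (Finset.univ.filter (fun x : A3 => p x ∧ o x)).card =
      ∑ M : M9, bif g M then ∑ v : V3, (if o (mk M v) then 1 else 0) else 0 := by
  rw [Finset.card_filter, ← Equiv.sum_comp mkE, Fintype.sum_prod_type]
  refine Finset.sum_congr rfl (fun M _ => ?_)
  cases hg : g M
  · simp only [cond_false]
    apply Finset.sum_eq_zero
    intro v _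
    rw [if_neg]
    rintro ⟨h1, -⟩
    have := (hp M v).mp h1
    rw [hg] at this
    exact absurd this (by decide)
  · simp only [cond_true]
    refine Finset.sum_congr rfl (fun v _ => ?_)
    have h1 := (hp M v).mpr hg
    change (if p (mk M v) ∧ o (mk M v) then 1 else 0) = _
    by_cases h2 : o (mk M v)
    · rw [if_pos h2, if_pos ⟨h1, h2⟩]
    · rw [if_neg h2, if_neg (fun h => h2 h.2)]

end Cfsg.Agent.H24.OType
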