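import Mathlib
import Cfsg.Agent.H24_OType1
import Cfsg.Agent.H24_OType3

/-! Order statistics of two groups of order 168. -/

namespace Cfsg.Agent.H24.OType
open A3

/-- det filter -/
def g1 (M : M9) : Bool := decide (A3.det (mk M (0, 0, 0)) = 1)
/-- det + normalizer filter -/
def g2 (M : M9) : Bool := g1 M && nrm (mk M (0, 0, 0))

theorem g1_iff (M : M9) (v : V3) : A3.det (mk M v) = 1 ↔ g1 M = true := by
  rw [g1, decide_eq_true_iff]; rfl

theorem g2_iff (M : M9) (v : V3) : (A3.det (mk M v) = 1 ∧ nrm (mk M v) = true) ↔ g2 M = true := by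
  rw [g2, Bool.and_eq_true, ← g1_iff M v]; rfl

set_option maxRecDepth 100000 in
theorem ord_GL : ∀ M : M9, g1 M = true → ordB (mk M (0, 0, 0)) ≠ 0 := by decide +kernel

set_option maxRecDepth 100000 in
theorem ord_AG : ∀ M : M9, g2 M = true → ∀ v : V3, ordB (mk M v) ≠ 0 ∧ ordB (mk M v) ≠ 4 := by decide +kernel

set_option maxRecDepth 100000 in
theorem ord_GL' : ∀ M : M9, g1 M = true → ordB (mk M (0, 0, 0)) ≠ 6 := by decide +kernel

theorem cGL1 : (∑ M : M9, bif g1 M then ∑ v : V3, (if A3.lin (mk M v) = mk M v ∧ ordB (mk M v) = 1 then 1 else 0) else 0) = 1 := by decide +kernel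
theorem cGL2 : (∑ M : M9, bif g1 M then ∑ v : V3, (if A3.lin (mk M v) = mk M v ∧ ordB (mk M v) = 2 then 1 else 0) else 0) = 21 := by decide +kernel
theorem cGL3 : (∑ M : M9, bif g1 M then ∑ v : V3, (if A3.lin (mk M v) = mk M v ∧ ordB (mk M v) = 3 then 1 else 0) else 0) = 56 := by decide +kernel
theorem cGL4 : (∑ M : M9, bif g1 M then ∑ v : V3, (if A3.lin (mk M v) = mk M v ∧ ordB (mk M v) = 4 then 1 else 0) else 0) = 42 := by decide +kernel
theorem cGL7 : (∑ M : M9, bif g1 M then ∑ v : V3, (if A3.lin (mk M v) = mk M v ∧ ordB (mk M v) = 7 then 1 else 0) else 0) = 48 := by decide +kernel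
theorem cAG1 : (∑ M : M9, bif g2 M then ∑ v : V3, (if ordB (mk M v) = 1 then 1 else 0) else 0) = 1 := by decide +kernel
theorem cAG2 : (∑ M : M9, bif g2 M then ∑ v : V3, (if ordB (mk M v) = 2 then 1 else 0) else 0) = 7 := by decide +kernel
theorem cAG3 : (∑ M : M9, bif g2 M then ∑ v : V3, (if ordB (mk M v) = 3 then 1 else 0) else 0) = 56 := by decide +kernel
theorem cAG6 : (∑ M : M9, bif g2 M then ∑ v : V3, (if ordB (mk M v) = 6 then 1 else 0) else 0) = 56 := by decide +kernel
theorem cAG7 : (∑ M : M9, bif g2 M then ∑ v : V3, (if ordB (mk M v) = 7 then 1 else 0) else 0) = 48 := by decide +kernel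

end Cfsg.Agent.H24.OType
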