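import Mathlib
import Cfsg.Agent.H24_OType4
import Cfsg.Agent.H3_Burnside

/-! The two groups of order 168: `AΓL(1,8)` and `GL(3,2)`. -/

namespace Cfsg.Agent.H24.OType
open A3

/-- determinant as a hom -/
def detHom : A3 →* ZMod 2 where
  toFun := A3.det
  map_one' := det_one
  map_mul' := det_mul

theorem zmod2_unit : ∀ u : (ZMod 2)ˣ, (u : ZMod 2) = 1 := by decide

theorem det_unit (u : A3ˣ) : A3.det (u : A3) = 1 := zmod2_unit (Units.map detHom u)

/-- linear group -/
def GLs : Subgroup A3ˣ := (Units.map lin).eqLocus (MonoidHom.id _)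

theorem mem_GL (u : A3ˣ) : u ∈ GLs ↔ (A3.det (u : A3) = 1 ∧ lin (u : A3) = u) := by
  constructor
  · intro h
    exact ⟨det_unit u, congrArg Units.val (show Units.map lin u = u from h)⟩
  · intro h
    exact Units.ext h.2

theorem lin_mk (M : M9) (v : V3) : lin (mk M v) = mk M (0, 0, 0) := rfl

theorem ordB_GL (u : A3ˣ) (hu : u ∈ GLs) : ordB (u : A3) ≠ 0 ∧ ordB (u : A3) ≠ 6 := by
  obtain ⟨h1, h2⟩ := (mem_GL u).mp hu
  obtain ⟨⟨M, v⟩, hM⟩ := mkE.surjective (u : A3)
  change mk M v = _ at hM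
  rw [← hM] at h1 h2 ⊢
  rw [lin_mk] at h2
  rw [← h2]
  have := (g1_iff M v).mp h1
  exact ⟨ord_GL M this, ord_GL' M this⟩

theorem sg_pow7 : sg ^ 7 = 1 := by
  have : sg ^ 7 = sg * sg * sg * sg * sg * sg * sg := by
    simp only [pow_succ, pow_zero, one_mul]
  rw [this]
  decide +kernel

theorem nrm_iff (x : A3) : nrm x = true ↔ ∃ a, (a = 1 ∨ a = 2 ∨ a = 4) ∧ lin x * sg = sg ^ a * lin x := by
  rw [nrm, Bool.or_eq_true, Bool.or_eq_true, decide_eq_true_iff, decide_eq_true_iff, decide_eq_true_iff]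
  have e2 : sg ^ 2 = sg * sg := by simp only [pow_succ, pow_zero, one_mul]
  have e4 : sg ^ 4 = sg * sg * sg * sg := by simp only [pow_succ, pow_zero, one_mul]
  constructor
  · rintro ((h | h) | h)
    · exact ⟨1, Or.inl rfl, by rw [pow_one]; exact h⟩
    · exact ⟨2, Or.inr (Or.inl rfl), by rw [e2]; exact h⟩
    · exact ⟨4, Or.inr (Or.inr rfl), by rw [e4]; exact h⟩
  · rintro ⟨a, (rfl | rfl | rfl), h⟩
    · rw [pow_one] at h; exact Or.inl (Or.inl h)
    · rw [e2] at h; exact Or.inl (Or.inr h)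
    · rw [e4] at h; exact Or.inr h

theorem comm_pow {x : A3} {a : ℕ} (h : lin x * sg = sg ^ a * lin x) (b : ℕ) :
    lin x * sg ^ b = sg ^ (a * b) * lin x := by
  induction b with
  | zero => simp
  | succ b ih => rw [pow_succ, ← mul_assoc, ih, mul_assoc, h, ← mul_assoc, ← pow_add, Nat.mul_succ]

theorem nrm_mul {x y : A3} (hx : nrm x = true) (hy : nrm y = true) : nrm (x * y) = true := by
  rw [nrm_iff] at *
  obtain ⟨a, ha, h1⟩ := hx
  obtain ⟨b, hb, h2⟩ := hy
  have h3 : lin (x * y) * sg = sg ^ (a * b) * lin (x * y) := by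
    rw [map_mul, mul_assoc, h2, ← mul_assoc, comm_pow h1, mul_assoc]
  have h8 : sg ^ 8 = sg ^ 1 := by rw [show 8 = 7 + 1 by rfl, pow_add, sg_pow7, one_mul]
  have h16 : sg ^ 16 = sg ^ 2 := by
    rw [show 16 = 7 + 7 + 2 by rfl, pow_add, pow_add, sg_pow7, one_mul, one_mul]
  rcases ha with rfl | rfl | rfl <;> rcases hb with rfl | rfl | rfl
  · exact ⟨1, by norm_num, h3⟩
  · exact ⟨2, by norm_num, h3⟩
  · exact ⟨4, by norm_num, h3⟩
  · exact ⟨2, by norm_num, h3⟩
  · exact ⟨4, by norm_num, h3⟩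
  · exact ⟨1, by norm_num, by rw [← h8]; exact h3⟩
  · exact ⟨4, by norm_num, h3⟩
  · exact ⟨1, by norm_num, by rw [← h8]; exact h3⟩
  · exact ⟨2, by norm_num, by rw [← h16]; exact h3⟩

theorem nrm_one : nrm 1 = true := by
  rw [nrm_iff]
  exact ⟨1, Or.inl rfl, by rw [map_one, one_mul, mul_one, pow_one]⟩

/-- semilinear affine group -/
def AG : Subgroup A3ˣ where
  carrier := {u | nrm (u : A3) = true}
  mul_mem' := fun ha hb => nrm_mul ha hb
  one_mem' := nrm_one
  inv_mem' := by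
    intro u hu
    have hpow : ∀ k : ℕ, nrm ((u ^ k : A3ˣ) : A3) = true := by
      intro k
      induction k with
      | zero => rw [pow_zero]; exact nrm_one
      | succ k ih => rw [pow_succ]; exact nrm_mul ih hu
    have h1 : u⁻¹ = u ^ (orderOf u - 1) := by
      rw [inv_eq_iff_mul_eq_one, ← pow_succ', Nat.sub_add_cancel (orderOf_pos u), pow_orderOf_eq_one]
    change nrm ((u⁻¹ : A3ˣ) : A3) = true
    rw [h1]
    exact hpow _

theorem mem_AG (u : A3ˣ) : u ∈ AG ↔ (A3.det (u : A3) = 1 ∧ nrm (u : A3) = true) :=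
  ⟨fun h => ⟨det_unit u, h⟩, fun h => h.2⟩

theorem ordB_AG (u : A3ˣ) (hu : u ∈ AG) : ordB (u : A3) ≠ 0 ∧ ordB (u : A3) ≠ 4 := by
  have h := (mem_AG u).mp hu
  obtain ⟨⟨M, v⟩, hM⟩ := mkE.surjective (u : A3)
  change mk M v = _ at hM
  rw [← hM] at h ⊢
  exact ord_AG M ((g2_iff M v).mp h) v

theorem range_aux (c1 c2 c3 c4 c5 c6 : Prop) [Decidable c1] [Decidable c2] [Decidable c3] [Decidable c4]
    [Decidable c5] [Decidable c6]
    (h : (if c1 then 1 else if c2 then 2 else if c3 then 3 else if c4 then 4 else if c5 then 6 else if c6 then 7 else 0) ≠ 0) :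
    (if c1 then 1 else if c2 then 2 else if c3 then 3 else if c4 then 4 else if c5 then 6 else if c6 then 7 else 0) = 1 ∨
    (if c1 then 1 else if c2 then 2 else if c3 then 3 else if c4 then 4 else if c5 then 6 else if c6 then 7 else 0) = 2 ∨
    (if c1 then 1 else if c2 then 2 else if c3 then 3 else if c4 then 4 else if c5 then 6 else if c6 then 7 else 0) = 3 ∨
    (if c1 then 1 else if c2 then 2 else if c3 then 3 else if c4 then 4 else if c5 then 6 else if c6 then 7 else 0) = 4 ∨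
    (if c1 then 1 else if c2 then 2 else if c3 then 3 else if c4 then 4 else if c5 then 6 else if c6 then 7 else 0) = 6 ∨
    (if c1 then 1 else if c2 then 2 else if c3 then 3 else if c4 then 4 else if c5 then 6 else if c6 then 7 else 0) = 7 := by
  by_cases h1 : c1
  · simp [h1]
  by_cases h2 : c2
  · simp [h1, h2]
  by_cases h3 : c3
  · simp [h1, h2, h3]
  by_cases h4 : c4
  · simp [h1, h2, h3, h4]
  by_cases h5 : c5
  · simp [h1, h2, h3, h4, h5]
  by_cases h6 : c6
  · simp [h1, h2, h3, h4, h5, h6]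
  · simp [h1, h2, h3, h4, h5, h6] at h

theorem ordB_range (x : A3) (h : ordB x ≠ 0) : ordB x = 1 ∨ ordB x = 2 ∨ ordB x = 3 ∨ ordB x = 4 ∨ ordB x = 6 ∨ ordB x = 7 :=
  range_aux _ _ _ _ _ _ h

/-- statistics -/
def NGL : ℕ → ℕ := fun k => if k = 1 then 1 else if k = 2 then 21 else if k = 3 then 56 else if k = 4 then 42 else 48
/-- statistics -/
def NAG : ℕ → ℕ := fun k => if k = 1 then 1 else if k = 2 then 7 else if k = 3 then 56 else if k = 6 then 56 else 48

theorem card_GL (k : ℕ) (hk : k ∈ ({1, 2, 3, 4, 7} : Finset ℕ)) : Nat.card {g : GLs // orderOf g = k} = NGL k := by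
  have hk0 : k ≠ 0 := by rintro rfl; revert hk; decide
  rw [card_orderOf_eq GLs (fun x => A3.det x = 1 ∧ lin x = x) mem_GL k hk0 (fun u hu => (ordB_GL u hu).1)]
  have e1 : (Finset.univ.filter (fun x : A3 => (A3.det x = 1 ∧ lin x = x) ∧ ordB x = k)) =
      Finset.univ.filter (fun x : A3 => A3.det x = 1 ∧ (lin x = x ∧ ordB x = k)) := by
    apply Finset.filter_congr
    intro x _
    exact and_assoc
  rw [e1, card_filter_fast g1 (fun x => A3.det x = 1) (fun x => lin x = x ∧ ordB x = k) g1_iff]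
  simp only [Finset.mem_insert, Finset.mem_singleton] at hk
  rcases hk with rfl | rfl | rfl | rfl | rfl
  · exact cGL1
  · exact cGL2
  · exact cGL3
  · exact cGL4
  · exact cGL7

theorem card_AG (k : ℕ) (hk : k ∈ ({1, 2, 3, 6, 7} : Finset ℕ)) : Nat.card {g : AG // orderOf g = k} = NAG k := by
  have hk0 : k ≠ 0 := by rintro rfl; revert hk; decide
  rw [card_orderOf_eq AG (fun x => A3.det x = 1 ∧ nrm x = true) mem_AG k hk0 (fun u hu => (ordB_AG u hu).1)]
  rw [card_filter_fast g2 (fun x => A3.det x = 1 ∧ nrm x = true) (fun x => ordB x = k) g2_iff]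
  simp only [Finset.mem_insert, Finset.mem_singleton] at hk
  rcases hk with rfl | rfl | rfl | rfl | rfl
  · exact cAG1
  · exact cAG2
  · exact cAG3
  · exact cAG6
  · exact cAG7

theorem count_GL (n : ℕ) : Nat.card {g : GLs // g ^ n = 1} = ∑ k ∈ ({1, 2, 3, 4, 7} : Finset ℕ), if k ∣ n then NGL k else 0 := by
  apply count_of_orders _ _ _ card_GL
  intro g
  have h1 := ordB_GL g.1 g.2
  have h2 := ordB_spec _ h1.1
  rw [orderOf_units, Subgroup.orderOf_coe] at h2
  rw [h2]
  have := ordB_range _ h1.1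
  have h3 := h1.2
  simp only [Finset.mem_insert, Finset.mem_singleton]
  tauto

theorem count_AG (n : ℕ) : Nat.card {g : AG // g ^ n = 1} = ∑ k ∈ ({1, 2, 3, 6, 7} : Finset ℕ), if k ∣ n then NAG k else 0 := by
  apply count_of_orders _ _ _ card_AG
  intro g
  have h1 := ordB_AG g.1 g.2
  have h2 := ordB_spec _ h1.1
  rw [orderOf_units, Subgroup.orderOf_coe] at h2
  rw [h2]
  have := ordB_range _ h1.1
  have h3 := h1.2
  simp only [Finset.mem_insert, Finset.mem_singleton]
  tauto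

end Cfsg.Agent.H24.OType
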