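import Mathlib
import Cfsg.Agent.H24_OType5
import Cfsg.Agent.H3_Burnside
import Cfsg.Agent.H1_Wiel

/-! Solvability and non-solvability. -/

namespace Cfsg.Agent.H24.OType
open A3
open scoped commutatorElement

theorem not_solvable_of_gens {G : Type*} [Group G] (a b x1 y1 x2 y2 : G) (ha : a ≠ 1)
    (hx1 : x1 ∈ Subgroup.closure {a, b}) (hy1 : y1 ∈ Subgroup.closure {a, b})
    (hx2 : x2 ∈ Subgroup.closure {a, b}) (hy2 : y2 ∈ Subgroup.closure {a, b})
    (h1 : a = ⁅x1, y1⁆) (h2 : b = ⁅x2, y2⁆) : ¬ Group.IsSolvable (Subgroup.closure ({a, b} : Set G)) := by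
  intro hs
  have hnt : Nontrivial (Subgroup.closure ({a, b} : Set G)) :=
    ⟨⟨⟨a, Subgroup.subset_closure (by simp)⟩, 1, fun h => ha (congrArg Subtype.val h)⟩⟩
  have hle : Subgroup.closure ({a, b} : Set G) ≤
      ⁅Subgroup.closure ({a, b} : Set G), Subgroup.closure ({a, b} : Set G)⁆ := by
    have m1 := Subgroup.commutator_mem_commutator hx1 hy1
    have m2 := Subgroup.commutator_mem_commutator hx2 hy2
    rw [← h1] at m1
    rw [← h2] at m2
    refine (Subgroup.closure_le _).mpr ?_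
    rintro z (rfl | rfl)
    · exact m1
    · exact m2
  have hlt := Group.IsSolvable.commutator_lt_top_of_nontrivial (Subgroup.closure ({a, b} : Set G))
  apply hlt.ne
  rw [← Subgroup.map_subtype_commutator] at hle
  rw [eq_top_iff]
  intro z _
  obtain ⟨w, hw, hwz⟩ := hle z.2
  have : w = z := Subtype.ext hwz
  rw [← this]; exact hw

/-- unit -/
def ua : A3ˣ where
  val := sg
  inv := sg * sg * sg * sg * sg * sg
  val_inv := by decide +kernel
  inv_val := by decide +kernel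

/-- unit -/
def ub : A3ˣ where
  val := mk ((0, 0, 1), (1, 1, 1), (1, 0, 0)) (0, 0, 0)
  inv := mk ((0, 0, 1), (1, 1, 1), (1, 0, 0)) (0, 0, 0)
  val_inv := by decide +kernel
  inv_val := by decide +kernel

theorem hua : ua = ⁅ua⁻¹ * ub * ua⁻¹ * ua⁻¹, ub * ua * ua * ua⁆ := by
  apply Units.ext
  decide +kernel

theorem hub : ub = ⁅ua⁻¹ * ua⁻¹ * ub * ua⁻¹, ua⁻¹ * ua⁻¹ * ub * ua⁻¹ * ub⁆ := by
  apply Units.ext
  decide +kernel

theorem ua_ne : ua ≠ 1 := by
  intro h
  have := congrArg Units.val h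
  revert this
  decide +kernel

theorem not_solvable_GLs : ¬ Group.IsSolvable GLs := by
  intro hs
  have ha : ua ∈ GLs := (mem_GL ua).mpr ⟨det_unit ua, rfl⟩
  have hb : ub ∈ GLs := (mem_GL ub).mpr ⟨det_unit ub, rfl⟩
  have ca : ua ∈ Subgroup.closure ({ua, ub} : Set A3ˣ) := Subgroup.subset_closure (by simp)
  have cb : ub ∈ Subgroup.closure ({ua, ub} : Set A3ˣ) := Subgroup.subset_closure (by simp)
  have ca' := (Subgroup.closure ({ua, ub} : Set A3ˣ)).inv_mem ca
  have hK : Subgroup.closure ({ua, ub} : Set A3ˣ) ≤ GLs := by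
    rw [Subgroup.closure_le]
    rintro z (rfl | rfl)
    · exact ha
    · exact hb
  have k1 : ua⁻¹ * ub * ua⁻¹ * ua⁻¹ ∈ Subgroup.closure ({ua, ub} : Set A3ˣ) :=
    mul_mem (mul_mem (mul_mem ca' cb) ca') ca'
  have k2 : ub * ua * ua * ua ∈ Subgroup.closure ({ua, ub} : Set A3ˣ) := mul_mem (mul_mem (mul_mem cb ca) ca) ca
  have k3 : ua⁻¹ * ua⁻¹ * ub * ua⁻¹ ∈ Subgroup.closure ({ua, ub} : Set A3ˣ) :=
    mul_mem (mul_mem (mul_mem ca' ca') cb) ca'
  have k4 : ua⁻¹ * ua⁻¹ * ub * ua⁻¹ * ub ∈ Subgroup.closure ({ua, ub} : Set A3ˣ) := mul_mem k3 cb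
  have hn := not_solvable_of_gens ua ub _ _ _ _ ua_ne k1 k2 k3 k4 hua hub
  exact hn (Group.isSolvable_of_isSolvable_injective (Subgroup.inclusion_injective hK))

theorem card_AG_eq : Nat.card AG = 168 := by
  have h := count_AG 0
  have h1 : Nat.card {g : AG // g ^ 0 = 1} = Nat.card AG :=
    Nat.card_congr ⟨fun x => x.1, fun x => ⟨x, pow_zero x⟩, fun x => rfl, fun x => rfl⟩
  rw [h1] at h
  rw [h]
  decide

/-- linear part on `AG` -/
def fAG : AG →* A3ˣ := (Units.map lin).comp AG.subtype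

theorem mem_ker (g : AG) : g ∈ fAG.ker ↔ ∃ v : V3, ((g : A3ˣ) : A3) = mk ((1, 0, 0), (0, 1, 0), (0, 0, 1)) v := by
  obtain ⟨⟨M, v⟩, hM⟩ := mkE.surjective ((g : A3ˣ) : A3)
  change mk M v = _ at hM
  rw [MonoidHom.mem_ker]
  constructor
  · intro h
    have h1 : lin ((g : A3ˣ) : A3) = 1 := congrArg Units.val h
    rw [← hM, lin_mk] at h1
    have h2 : M = ((1, 0, 0), (0, 1, 0), (0, 0, 1)) := by
      have := congrArg mkE.symm h1
      exact congrArg Prod.fst this
    exact ⟨v, by rw [← hM, h2]⟩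
  · rintro ⟨w, hw⟩
    apply Units.ext
    change lin ((g : A3ˣ) : A3) = 1
    rw [hw]
    rfl

theorem trans_comm (v w : V3) : mk ((1, 0, 0), (0, 1, 0), (0, 0, 1)) v * mk ((1, 0, 0), (0, 1, 0), (0, 0, 1)) w =
    mk ((1, 0, 0), (0, 1, 0), (0, 0, 1)) w * mk ((1, 0, 0), (0, 1, 0), (0, 0, 1)) v := by
  revert v w
  decide +kernel

theorem trans_sq (v : V3) : mk ((1, 0, 0), (0, 1, 0), (0, 0, 1)) v * mk ((1, 0, 0), (0, 1, 0), (0, 0, 1)) v = 1 := by
  revert v
  decide +kernel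

theorem solvable_AG : Group.IsSolvable AG := by
  have hcomm : ∀ a b : fAG.ker, a * b = b * a := by
    intro a b
    obtain ⟨v, hv⟩ := (mem_ker a.1).mp a.2
    obtain ⟨w, hw⟩ := (mem_ker b.1).mp b.2
    apply Subtype.ext
    apply Subtype.ext
    apply Units.ext
    change (((a.1 : A3ˣ)) : A3) * (((b.1 : A3ˣ)) : A3) = (((b.1 : A3ˣ)) : A3) * (((a.1 : A3ˣ)) : A3)
    rw [hv, hw, trans_comm]
  have hsk : Group.IsSolvable fAG.ker := Group.isSolvable_of_comm hcomm
  have hcard : Nat.card fAG.ker = 8 := by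
    have e : fAG.ker ≃ V3 :=
      { toFun := fun g => (mkE.symm (((g.1 : A3ˣ)) : A3)).2
        invFun := fun v => ⟨⟨⟨mk ((1, 0, 0), (0, 1, 0), (0, 0, 1)) v, mk ((1, 0, 0), (0, 1, 0), (0, 0, 1)) v,
          trans_sq v, trans_sq v⟩, by
            change nrm _ = true
            rw [nrm_iff]
            exact ⟨1, Or.inl rfl, by
              have : lin (mk ((1, 0, 0), (0, 1, 0), (0, 0, 1)) v) = 1 := rfl
              rw [this, one_mul, mul_one, pow_one]⟩⟩, (mem_ker _).mpr ⟨v, rfl⟩⟩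
        left_inv := fun g => by
          obtain ⟨v, hv⟩ := (mem_ker g.1).mp g.2
          apply Subtype.ext
          apply Subtype.ext
          apply Units.ext
          change mk _ (mkE.symm (((g.1 : A3ˣ)) : A3)).2 = (((g.1 : A3ˣ)) : A3)
          rw [hv]
          rfl
        right_inv := fun v => rfl }
    rw [Nat.card_congr e]
    simp [Nat.card_prod, Nat.card_eq_fintype_card]
  have hidx : Nat.card (AG ⧸ fAG.ker) = 21 := by
    have h1 := Subgroup.card_eq_card_quotient_mul_card_subgroup fAG.ker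
    rw [card_AG_eq, hcard] at h1
    omega
  have hq : Group.IsSolvable (AG ⧸ fAG.ker) :=
    H3.Burnside.burnside 21 (AG ⧸ fAG.ker) 3 7 1 1 (by norm_num) (by norm_num) hidx (by norm_num)
  exact H1.Wiel.solvable_of_normal_quotient hsk hq

theorem sol_AG : Sol (fun n => ∑ k ∈ ({1, 2, 3, 6, 7} : Finset ℕ), if k ∣ n then NAG k else 0) :=
  ⟨AG, inferInstance, inferInstance, solvable_AG, count_AG⟩

theorem nsol_GL : NSol (fun n => ∑ k ∈ ({1, 2, 3, 4, 7} : Finset ℕ), if k ∣ n then NGL k else 0) :=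
  ⟨GLs, inferInstance, inferInstance, not_solvable_GLs, count_GL⟩

end Cfsg.Agent.H24.OType
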