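import Mathlib

/-!
# Characters of a normal abelian subgroup and orbits
-/

set_option autoImplicit false
set_option linter.unusedSectionVars false

namespace Cfsg.Agent.H24.Orb3

variable {K V A S : Type*} [Field K] [AddCommGroup V] [Module K V] [CommGroup A] [Group S]

/-- the action on characters -/
def ac (c : S →* MulAut A) (g : S) (χ : A →* Kˣ) : A →* Kˣ := χ.comp ((c g⁻¹ : A ≃* A) : A →* A)

theorem ac_apply (c : S →* MulAut A) (g : S) (χ : A →* Kˣ) (a : A) : ac c g χ a = χ (c g⁻¹ a) := rfl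

theorem ac_one (c : S →* MulAut A) (χ : A →* Kˣ) : ac c 1 χ = χ := by
  apply MonoidHom.ext
  intro a
  rw [ac_apply, inv_one, map_one]
  rfl

theorem ac_mul (c : S →* MulAut A) (g h : S) (χ : A →* Kˣ) : ac c (g * h) χ = ac c g (ac c h χ) := by
  apply MonoidHom.ext
  intro a
  rw [ac_apply, ac_apply, ac_apply, mul_inv_rev, map_mul]
  rfl

theorem ac_one' (c : S →* MulAut A) (g : S) : ac c g (1 : A →* Kˣ) = 1 := by
  apply MonoidHom.ext
  intro a
  rfl

theorem ac_inv (c : S →* MulAut A) (g : S) (χ : A →* Kˣ) : ac c g⁻¹ (ac c g χ) = χ := by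
  rw [← ac_mul, inv_mul_cancel, ac_one]

theorem ac_inv' (c : S →* MulAut A) (g : S) (χ : A →* Kˣ) : ac c g (ac c g⁻¹ χ) = χ := by
  rw [← ac_mul, mul_inv_cancel, ac_one]

/-- the action as a structure -/
@[reducible] def acM (c : S →* MulAut A) : MulAction S (A →* Kˣ) where
  smul := ac c
  one_smul := ac_one c
  mul_smul := ac_mul c

variable [Fintype A]

/-- projection to an eigenspace (up to a scalar) -/
noncomputable def pr (σ : Representation K A V) (χ : A →* Kˣ) : V →ₗ[K] V :=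
  ∑ a : A, ((χ a⁻¹ : Kˣ) : K) • σ a

theorem pr_apply (σ : Representation K A V) (χ : A →* Kˣ) (v : V) :
    pr σ χ v = ∑ a : A, ((χ a⁻¹ : Kˣ) : K) • σ a v := by
  simp [pr]

theorem pr_eig (σ : Representation K A V) (χ : A →* Kˣ) (b : A) (v : V) :
    σ b (pr σ χ v) = ((χ b : Kˣ) : K) • pr σ χ v := by
  rw [pr_apply, map_sum, Finset.smul_sum]
  rw [← Equiv.sum_comp (Equiv.mulLeft b) (fun a => ((χ b : Kˣ) : K) • (((χ a⁻¹ : Kˣ) : K) • σ a v))]
  apply Finset.sum_congr rfl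
  intro a _
  rw [map_smul, smul_smul]
  congr 1
  · change _ = ((χ b : Kˣ) : K) * ((χ (b * a)⁻¹ : Kˣ) : K)
    rw [← Units.val_mul, ← map_mul]
    rw [mul_inv, ← mul_assoc, mul_inv_cancel, one_mul]
  · change σ b (σ a v) = σ (b * a) v
    rw [map_mul]; rfl

theorem sum_char {χ : A →* Kˣ} (hχ : χ ≠ 1) : ∑ a : A, ((χ a : Kˣ) : K) = 0 := by
  obtain ⟨b, hb⟩ : ∃ b, χ b ≠ 1 := by
    by_contra h
    push Not at h
    exact hχ (MonoidHom.ext h)
  have h1 : ∑ a : A, ((χ a : Kˣ) : K) = ((χ b : Kˣ) : K) * ∑ a : A, ((χ a : Kˣ) : K) := by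
    rw [Finset.mul_sum, ← Equiv.sum_comp (Equiv.mulLeft b)]
    apply Finset.sum_congr rfl
    intro a _
    change ((χ (b * a) : Kˣ) : K) = _
    rw [map_mul, Units.val_mul]
  have h2 : (1 - ((χ b : Kˣ) : K)) * ∑ a : A, ((χ a : Kˣ) : K) = 0 := by
    rw [sub_mul, one_mul, ← h1, sub_self]
  rcases mul_eq_zero.1 h2 with h | h
  · exfalso
    apply hb
    apply Units.ext
    rw [Units.val_one]
    exact (sub_eq_zero.1 h).symm
  · exact h

theorem pr_ne (σ : Representation K A V) {χ ψ : A →* Kˣ} (h : ψ ≠ χ) (v : V) : pr σ ψ (pr σ χ v) = 0 := by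
  rw [pr_apply σ ψ]
  have h1 : ∀ a : A, ((ψ a⁻¹ : Kˣ) : K) • σ a (pr σ χ v) = (((ψ⁻¹ * χ) a : Kˣ) : K) • pr σ χ v := by
    intro a
    rw [pr_eig, smul_smul]
    congr 1
    rw [MonoidHom.mul_apply, MonoidHom.inv_apply, map_inv, Units.val_mul]
  rw [Finset.sum_congr rfl (fun a _ => h1 a), ← Finset.sum_smul, sum_char, zero_smul]
  intro h2
  apply h
  apply MonoidHom.ext
  intro a
  have h3 := DFunLike.congr_fun h2 a
  rw [MonoidHom.mul_apply, MonoidHom.inv_apply, MonoidHom.one_apply] at h3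
  exact inv_mul_eq_one.1 h3

/-- all projections vanish only on zero -/
theorem eq_zero_of_pr [HasEnoughRootsOfUnity K (Monoid.exponent A)] (σ : Representation K A V)
    (hA : ((Nat.card A : ℕ) : K) ≠ 0) {v : V} (h : ∀ χ : A →* Kˣ, pr σ χ v = 0) : v = 0 := by
  haveI : Finite (A →* Kˣ) := Nat.finite_of_card_ne_zero (by
    rw [CommGroup.card_monoidHom_of_hasEnoughRootsOfUnity]
    exact Nat.card_pos.ne')
  haveI := Fintype.ofFinite (A →* Kˣ)
  have h1 : ∑ χ : A →* Kˣ, pr σ χ v = ((Nat.card A : ℕ) : K) • v := by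
    have h2 : ∀ χ : A →* Kˣ, pr σ χ v = ∑ a : A, ((χ a⁻¹ : Kˣ) : K) • σ a v := fun χ => pr_apply σ χ v
    rw [Finset.sum_congr rfl (fun χ _ => h2 χ), Finset.sum_comm]
    have h3 : ∀ a : A, ∑ χ : A →* Kˣ, ((χ a⁻¹ : Kˣ) : K) • σ a v =
        (∑ χ : A →* Kˣ, ((χ a⁻¹ : Kˣ) : K)) • σ a v := fun a => (Finset.sum_smul).symm
    rw [Finset.sum_congr rfl (fun a _ => h3 a), Finset.sum_eq_single 1]
    · have h4 : ∀ χ : A →* Kˣ, ((χ 1⁻¹ : Kˣ) : K) = 1 := by
        intro χ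
        rw [inv_one, map_one, Units.val_one]
      rw [Finset.sum_congr rfl (fun χ _ => h4 χ), map_one]
      simp only [Finset.sum_const, Finset.card_univ, nsmul_eq_mul, mul_one]
      rw [← Nat.card_eq_fintype_card, CommGroup.card_monoidHom_of_hasEnoughRootsOfUnity]
      rfl
    · intro a _ ha
      obtain ⟨φ, hφ⟩ := CommGroup.exists_apply_ne_one_of_hasEnoughRootsOfUnity A K (a := a⁻¹) (inv_ne_one.2 ha)
      have h5 : ∑ χ : A →* Kˣ, ((χ a⁻¹ : Kˣ) : K) = ((φ a⁻¹ : Kˣ) : K) * ∑ χ : A →* Kˣ, ((χ a⁻¹ : Kˣ) : K) := by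
        rw [Finset.mul_sum]
        rw [← Equiv.sum_comp (Equiv.mulLeft φ) (fun χ => ((χ a⁻¹ : Kˣ) : K))]
        apply Finset.sum_congr rfl
        intro χ _
        change (((φ * χ) a⁻¹ : Kˣ) : K) = _
        rw [MonoidHom.mul_apply, Units.val_mul]
      have h6 : (1 - ((φ a⁻¹ : Kˣ) : K)) * ∑ χ : A →* Kˣ, ((χ a⁻¹ : Kˣ) : K) = 0 := by
        rw [sub_mul, one_mul, ← h5, sub_self]
      rcases mul_eq_zero.1 h6 with h7 | h7
      · exfalso
        apply hφ
        apply Units.ext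
        rw [Units.val_one]
        exact (sub_eq_zero.1 h7).symm
      · rw [h7, zero_smul]
    · intro h; exact absurd (Finset.mem_univ _) h
  rw [Finset.sum_congr rfl (fun χ _ => h χ), Finset.sum_const_zero] at h1
  exact (smul_eq_zero.1 h1.symm).resolve_left hA

theorem pr_ac (c : S →* MulAut A) (σ : Representation K A V) (τ : Representation K S V)
    (hτσ : ∀ g a v, τ g (σ a v) = σ (c g a) (τ g v)) (g : S) (χ : A →* Kˣ) (v : V) :
    pr σ (ac c g χ) (τ g v) = τ g (pr σ χ v) := by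
  rw [pr_apply, pr_apply, map_sum]
  rw [← Equiv.sum_comp (c g).toEquiv]
  apply Finset.sum_congr rfl
  intro a _
  rw [map_smul, hτσ]
  congr 2
  change χ (c g⁻¹ (c g a)⁻¹) = χ a⁻¹
  rw [← map_inv (c g), ← MulAut.mul_apply, ← map_mul, inv_mul_cancel, map_one]
  rfl

end Cfsg.Agent.H24.Orb3
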