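import Mathlib
import Cfsg.Agent.H24_Orb3

/-!
# Fixed spaces and orbits on characters
-/

set_option autoImplicit false
set_option linter.unusedSectionVars false

namespace Cfsg.Agent.H24.Orb4

open Cfsg.Agent.H24.Orb3

variable {K V A S : Type*} [Field K] [AddCommGroup V] [Module K V] [CommGroup A] [Group S] [Fintype A]

/-- the support -/
def supp (σ : Representation K A V) (v : V) : Set (A →* Kˣ) := {χ | pr σ χ v ≠ 0}

theorem mem_supp {σ : Representation K A V} {v : V} {χ : A →* Kˣ} : χ ∈ supp σ v ↔ pr σ χ v ≠ 0 := Iff.rfl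

theorem rinj (τ : Representation K S V) (g : S) {v : V} (h : τ g v = 0) : v = 0 := by
  have h1 : τ g⁻¹ (τ g v) = v := by
    change (τ g⁻¹ * τ g) v = v
    rw [← map_mul, inv_mul_cancel, map_one]; rfl
  rw [← h1, h, map_zero]

theorem supp_tau (c : S →* MulAut A) (σ : Representation K A V) (τ : Representation K S V)
    (hτσ : ∀ g a v, τ g (σ a v) = σ (c g a) (τ g v)) (g : S) (v : V) (χ : A →* Kˣ) :
    ac c g χ ∈ supp σ (τ g v) ↔ χ ∈ supp σ v := by
  rw [mem_supp, mem_supp, pr_ac c σ τ hτσ]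
  constructor
  · intro h h2
    apply h
    rw [h2, map_zero]
  · intro h h2
    exact h (rinj τ g h2)

theorem supp_image (c : S →* MulAut A) (σ : Representation K A V) (τ : Representation K S V)
    (hτσ : ∀ g a v, τ g (σ a v) = σ (c g a) (τ g v)) (g : S) (v : V) :
    supp σ (τ g v) = ac c g '' supp σ v := by
  ext χ
  constructor
  · intro h
    refine ⟨ac c g⁻¹ χ, ?_, ac_inv' c g χ⟩
    rw [← supp_tau c σ τ hτσ g, ac_inv']
    exact h
  · rintro ⟨ψ, hψ, rfl⟩
    exact (supp_tau c σ τ hτσ g v ψ).2 hψ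

/-- the orbit -/
def orb (c : S →* MulAut A) (T : Subgroup S) (χ : A →* Kˣ) : Set (A →* Kˣ) := {ψ | ∃ t ∈ T, ac c t χ = ψ}

theorem mem_orb_self (c : S →* MulAut A) (T : Subgroup S) (χ : A →* Kˣ) : χ ∈ orb c T χ :=
  ⟨1, one_mem T, ac_one c χ⟩

theorem orb_ac (c : S →* MulAut A) (T : Subgroup S) (χ : A →* Kˣ) {t : S} (ht : t ∈ T) {ψ : A →* Kˣ}
    (h : ψ ∈ orb c T χ) : ac c t ψ ∈ orb c T χ := by
  obtain ⟨s, hs, rfl⟩ := h
  exact ⟨t * s, mul_mem ht hs, ac_mul c t s χ⟩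

theorem no_inv [Finite (A →* Kˣ)] (c : S →* MulAut A) (T Q : Subgroup S) (hT : IsPGroup 2 T) {q : ℕ} [hq : Fact q.Prime]
    (hq2 : q ≠ 2) (hQ : IsPGroup q Q) (hfree : ∀ χ : A →* Kˣ, (∀ y ∈ Q, ac c y χ = χ) → χ = 1)
    {χ : A →* Kˣ} (hχ : χ ≠ 1) (hinv : ∀ y ∈ Q, ∀ ψ ∈ orb c T χ, ac c y ψ ∈ orb c T χ) : False := by
  letI := acM (K := K) c
  let X : SubMulAction Q (A →* Kˣ) := { carrier := orb c T χ, smul_mem' := fun y ψ hψ => hinv y y.2 ψ hψ }
  have h1 := IsPGroup.card_modEq_card_fixedPoints hQ X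
  have h2 : Nat.card (MulAction.fixedPoints Q X) = 0 := by
    rw [Nat.card_eq_zero]
    left
    constructor
    rintro ⟨⟨ψ, hψ⟩, hfix⟩
    have h3 : ∀ y ∈ Q, ac c y ψ = ψ := by
      intro y hy
      exact congrArg Subtype.val (hfix ⟨y, hy⟩)
    have h4 := hfree ψ h3
    obtain ⟨t, ht, h5⟩ := hψ
    apply hχ
    rw [h4] at h5
    rw [← ac_inv c t χ, h5, ac_one']
  rw [h2] at h1
  have h3 : q ∣ Nat.card X := (Nat.modEq_zero_iff_dvd).1 h1
  obtain ⟨n, hn⟩ := IsPGroup.card_orbit (G := T) hT χ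
  have h4 : Nat.card X = Nat.card (MulAction.orbit T χ) := by
    have h5 : orb c T χ = MulAction.orbit T χ := by
      ext ψ
      constructor
      · rintro ⟨t, ht, rfl⟩
        exact ⟨⟨t, ht⟩, rfl⟩
      · rintro ⟨⟨t, ht⟩, rfl⟩
        exact ⟨t, ht, rfl⟩
    change Nat.card (orb c T χ) = _
    rw [h5]
  rw [h4, hn] at h3
  exact hq2 ((Nat.prime_dvd_prime_iff_eq hq.out Nat.prime_two).1 (hq.out.dvd_of_dvd_pow h3))

theorem orbfix [CharP K 2] [Finite V] [HasEnoughRootsOfUnity K (Monoid.exponent A)]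
    (hA : ((Nat.card A : ℕ) : K) ≠ 0) (c : S →* MulAut A) (σ : Representation K A V) (τ : Representation K S V)
    (hτσ : ∀ g a v, τ g (σ a v) = σ (c g a) (τ g v)) (T : Subgroup S) (hT : IsPGroup 2 T)
    {χ : A →* Kˣ} {v : V} (hv : χ ∈ supp σ v) :
    ∃ w : V, (∀ t ∈ T, τ t w = w) ∧ supp σ w = orb c T χ := by
  let U : Submodule K V :=
    { carrier := {v | ∀ ψ, ψ ∉ orb c T χ → pr σ ψ v = 0}
      add_mem' := by
        intro a b ha hb ψ hψ
        rw [map_add, ha ψ hψ, hb ψ hψ, add_zero]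
      zero_mem' := by
        intro ψ hψ
        rw [map_zero]
      smul_mem' := by
        intro k a ha ψ hψ
        rw [map_smul, ha ψ hψ, smul_zero] }
  have hU : ∀ t ∈ T, ∀ u ∈ U, τ t u ∈ U := by
    intro t ht u hu ψ hψ
    have h1 : pr σ (ac c t⁻¹ ψ) u = 0 := by
      apply hu
      intro h
      apply hψ
      rw [← ac_inv' c t ψ]
      exact orb_ac c T χ ht h
    have h2 := pr_ac c σ τ hτσ t (ac c t⁻¹ ψ) u
    rw [ac_inv', h1, map_zero] at h2
    exact h2
  letI : MulAction T U :=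
    { smul := fun t u => ⟨τ t u, hU t t.2 u u.2⟩
      one_smul := by
        intro u
        apply Subtype.ext
        change τ ((1 : T) : S) u = u
        rw [Subgroup.coe_one, map_one]; rfl
      mul_smul := by
        intro s t u
        apply Subtype.ext
        change τ ((s * t : T) : S) u = τ s (τ t u)
        rw [Subgroup.coe_mul, map_mul]; rfl }
  have hu0 : pr σ χ v ∈ U := by
    intro ψ hψ
    apply pr_ne
    rintro rfl
    exact hψ (mem_orb_self c T _)
  have h2 : 2 ∣ Nat.card U := by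
    have h3 : addOrderOf (⟨pr σ χ v, hu0⟩ : U) = 2 := by
      apply addOrderOf_eq_prime
      · apply Subtype.ext
        change 2 • (pr σ χ v) = 0
        rw [← Nat.cast_smul_eq_nsmul K, CharP.cast_eq_zero, zero_smul]
      · intro h
        exact hv (congrArg Subtype.val h)
    rw [← h3]
    exact addOrderOf_dvd_natCard _
  obtain ⟨b, hb, hb0⟩ := hT.exists_fixed_point_of_prime_dvd_card_of_fixed_point U h2 (a := 0) (by
    intro t
    apply Subtype.ext
    change τ t 0 = 0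
    rw [map_zero])
  have hbT : ∀ t ∈ T, τ t (b : V) = b := fun t ht => congrArg Subtype.val (hb ⟨t, ht⟩)
  refine ⟨b, hbT, ?_⟩
  have hsub : supp σ (b : V) ⊆ orb c T χ := by
    intro ψ hψ
    by_contra h
    exact hψ (b.2 ψ h)
  have hinv : ∀ t ∈ T, ∀ ψ ∈ supp σ (b : V), ac c t ψ ∈ supp σ (b : V) := by
    intro t ht ψ hψ
    have := (supp_tau c σ τ hτσ t (b : V) ψ).2 hψ
    rwa [hbT t ht] at this
  obtain ⟨ψ, hψ⟩ : ∃ ψ, ψ ∈ supp σ (b : V) := by
    by_contra h
    push Not at h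
    apply hb0
    apply Subtype.ext
    exact (eq_zero_of_pr σ hA (fun χ => by
      by_contra h2
      exact h χ h2)).symm
  obtain ⟨s, hs, h5⟩ := hsub hψ
  apply Set.Subset.antisymm hsub
  rintro φ ⟨t, ht, rfl⟩
  have h6 : χ ∈ supp σ (b : V) := by
    rw [← ac_inv c s χ, h5]
    exact hinv _ (inv_mem hs) _ hψ
  exact hinv t ht χ h6

end Cfsg.Agent.H24.Orb4
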