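import Mathlib
import Cfsg.Agent.H24_Orb4

/-!
# Fixed spaces and orbits on characters: the dimension statement
-/

set_option autoImplicit false
set_option linter.unusedSectionVars false

namespace Cfsg.Agent.H24.Orb5

open Cfsg.Agent.H24.Orb3 Cfsg.Agent.H24.Orb4

variable {K V A S : Type*} [Field K] [AddCommGroup V] [Module K V] [CommGroup A] [Group S] [Fintype A]

theorem core [Finite (A →* Kˣ)] [CharP K 2] [Finite V] [Nontrivial V] [HasEnoughRootsOfUnity K (Monoid.exponent A)]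
    (hA : ((Nat.card A : ℕ) : K) ≠ 0) (c : S →* MulAut A) (σ : Representation K A V) (τ : Representation K S V)
    (hτσ : ∀ g a v, τ g (σ a v) = σ (c g a) (τ g v)) (T Q : Subgroup S) (hT : IsPGroup 2 T)
    {q : ℕ} [hq : Fact q.Prime] (hq2 : q ≠ 2) (hQ : IsPGroup q Q)
    (hfree : ∀ χ : A →* Kˣ, (∀ y ∈ Q, ac c y χ = χ) → χ = 1)
    (hfix : ∀ v : V, (∀ a, σ a v = v) → v = 0) (F : Submodule K V) (hF : ∀ v, v ∈ F ↔ ∀ t ∈ T, τ t v = v) :
    3 ≤ Module.finrank K F ∨ (Module.finrank K F = 2 ∧ ∃ y ∈ Q, ∃ v ∈ F, τ y v ∉ F) := by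
  obtain ⟨v0, hv0⟩ := exists_ne (0 : V)
  obtain ⟨χ1, hχ1⟩ : ∃ χ, χ ∈ supp σ v0 := by
    by_contra h
    push Not at h
    exact hv0 (eq_zero_of_pr σ hA (fun χ => by
      by_contra h2
      exact h χ h2))
  have hne : χ1 ≠ 1 := by
    rintro rfl
    apply hχ1
    apply hfix
    intro a
    rw [pr_eig, MonoidHom.one_apply, Units.val_one, one_smul]
  obtain ⟨y, hy, ψ, hψ, hψ2⟩ : ∃ y ∈ Q, ∃ ψ ∈ orb c T χ1, ac c y ψ ∉ orb c T χ1 := by
    by_contra h
    push Not at h
    exact no_inv c T Q hT hq2 hQ hfree hne h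
  obtain ⟨w1, hw1, hs1⟩ := orbfix hA c σ τ hτσ T hT hχ1
  set χ2 := ac c y ψ with hχ2
  have hχ2m : χ2 ∈ supp σ (τ y w1) := by
    rw [hχ2, supp_tau c σ τ hτσ, hs1]
    exact hψ
  obtain ⟨w2, hw2, hs2⟩ := orbfix hA c σ τ hτσ T hT hχ2m
  have hdisj : ∀ ξ, ξ ∈ orb c T χ1 → ξ ∈ orb c T χ2 → False := by
    rintro ξ h1 ⟨t, ht, h2⟩
    apply hψ2
    rw [← ac_inv c t χ2, h2]
    exact orb_ac c T χ1 (inv_mem ht) h1
  have hw1F : w1 ∈ F := (hF w1).2 hw1
  have hw2F : w2 ∈ F := (hF w2).2 hw2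
  -- supports of combinations
  have hsmul : ∀ (k : K) (v : V), k ≠ 0 → supp σ (k • v) = supp σ v := by
    intro k v hk
    ext χ
    rw [mem_supp, mem_supp, map_smul]
    constructor
    · intro h h2
      apply h
      rw [h2, smul_zero]
    · intro h
      exact smul_ne_zero hk h
  have hz1 : ∀ χ, χ ∉ orb c T χ1 → pr σ χ w1 = 0 := by
    intro χ h
    by_contra h2
    apply h
    rw [← hs1]
    exact h2
  have hz2 : ∀ χ, χ ∉ orb c T χ2 → pr σ χ w2 = 0 := by
    intro χ h
    by_contra h2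
    apply h
    rw [← hs2]
    exact h2
  have hm1 := mem_orb_self c T χ1
  have hm2 := mem_orb_self c T χ2
  have hp1 : pr σ χ1 w1 ≠ 0 := by rw [← hs1] at hm1; exact hm1
  have hp2 : pr σ χ2 w2 ≠ 0 := by rw [← hs2] at hm2; exact hm2
  have hli : ∀ a b : K, a • w1 + b • w2 = 0 → a = 0 ∧ b = 0 := by
    intro a b h
    constructor
    · have h1 := congrArg (pr σ χ1) h
      rw [map_add, map_smul, map_smul, hz2 χ1 (hdisj χ1 hm1), smul_zero, add_zero, map_zero] at h1
      exact (smul_eq_zero.1 h1).resolve_right hp1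
    · have h1 := congrArg (pr σ χ2) h
      rw [map_add, map_smul, map_smul, hz1 χ2 (fun h => hdisj χ2 h hm2), smul_zero, zero_add, map_zero] at h1
      exact (smul_eq_zero.1 h1).resolve_right hp2
  let w : Fin 2 → F := ![⟨w1, hw1F⟩, ⟨w2, hw2F⟩]
  have hLI : LinearIndependent K w := by
    rw [LinearIndependent.pair_iff]
    intro a b h
    exact hli a b (congrArg Subtype.val h)
  haveI : Finite K := by
    apply Finite.of_injective (fun k : K => k • w1)
    intro a b h
    have h' : a • w1 = b • w1 := h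
    have h2 : (a - b) • w1 + (0 : K) • w2 = 0 := by
      rw [sub_smul, h', sub_self, zero_smul, add_zero]
    exact sub_eq_zero.1 (hli _ _ h2).1
  haveI : Module.Finite K F := inferInstance
  have hge := hLI.fintype_card_le_finrank
  rw [Fintype.card_fin] at hge
  by_cases h3 : 3 ≤ Module.finrank K F
  · exact Or.inl h3
  have hfr : Module.finrank K F = 2 := by omega
  refine Or.inr ⟨hfr, ?_⟩
  by_contra hinv
  push Not at hinv
  have hspan := hLI.span_eq_top_of_card_eq_finrank (by rw [Fintype.card_fin, hfr])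
  have hcomb : ∀ v ∈ F, ∃ a b : K, v = a • w1 + b • w2 := by
    intro v hv
    have h1 : (⟨v, hv⟩ : F) ∈ Submodule.span K (Set.range w) := by rw [hspan]; trivial
    rw [show Set.range w = {⟨w1, hw1F⟩, ⟨w2, hw2F⟩} by simp [w, Matrix.range_cons, Matrix.range_empty, Set.pair_comm]] at h1
    obtain ⟨a, b, hab⟩ := Submodule.mem_span_pair.1 h1
    exact ⟨a, b, (congrArg Subtype.val hab).symm⟩
  have hboth : ∀ a b : K, a ≠ 0 → b ≠ 0 → supp σ (a • w1 + b • w2) = orb c T χ1 ∪ orb c T χ2 := by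
    intro a b ha hb
    ext χ
    rw [mem_supp, map_add, map_smul, map_smul, Set.mem_union]
    by_cases h1 : χ ∈ orb c T χ1
    · have h2 := hz2 χ (hdisj χ h1)
      rw [h2, smul_zero, add_zero]
      have h4 : pr σ χ w1 ≠ 0 := by rw [← hs1] at h1; exact h1
      exact ⟨fun _ => Or.inl h1, fun _ => smul_ne_zero ha h4⟩
    · rw [hz1 χ h1, smul_zero, zero_add]
      constructor
      · intro h
        right
        by_contra h5
        apply h
        rw [hz2 χ h5, smul_zero]
      · rintro (h | h)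
        · exact absurd h h1
        · have h4 : pr σ χ w2 ≠ 0 := by rw [← hs2] at h; exact h
          exact smul_ne_zero hb h4
  have hncard : (orb c T χ1 ∪ orb c T χ2).ncard = (orb c T χ1).ncard + (orb c T χ2).ncard := by
    apply Set.ncard_union_eq
    · rw [Set.disjoint_left]
      exact fun ξ h1 h2 => hdisj ξ h1 h2
    · exact Set.toFinite _
    · exact Set.toFinite _
  have hpos1 : 0 < (orb c T χ1).ncard := (Set.ncard_pos (Set.toFinite _)).2 ⟨χ1, hm1⟩
  have hpos2 : 0 < (orb c T χ2).ncard := (Set.ncard_pos (Set.toFinite _)).2 ⟨χ2, hm2⟩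
  have hsc : ∀ v : V, (supp σ (τ y v)).ncard = (supp σ v).ncard := by
    intro v
    rw [supp_image c σ τ hτσ]
    apply Set.ncard_image_of_injective
    intro a b h
    rw [← ac_inv c y a, h, ac_inv]
  obtain ⟨a, b, hab⟩ := hcomb _ (hinv y hy w1 hw1F)
  have hb : b ≠ 0 := by
    rintro rfl
    rw [zero_smul, add_zero] at hab
    have h1 : χ2 ∈ supp σ (τ y w1) := hχ2m
    rw [mem_supp, hab, map_smul, hz1 χ2 (fun h => hdisj χ2 h hm2), smul_zero] at h1
    exact h1 rfl
  have ha : a = 0 := by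
    by_contra ha
    have h1 := hsc w1
    rw [hab, hboth a b ha hb, hs1, hncard] at h1
    omega
  rw [ha, zero_smul, zero_add] at hab
  obtain ⟨a', b', hab'⟩ := hcomb _ (hinv y hy w2 hw2F)
  have ha' : a' ≠ 0 := by
    rintro rfl
    rw [zero_smul, zero_add] at hab'
    have h1 : τ y (b' • w1 - b • w2) = 0 := by
      rw [map_sub, map_smul, map_smul, hab, hab', smul_smul, smul_smul, mul_comm, sub_self]
    have h2 := rinj τ y h1
    have h3 : b' • w1 + (-b) • w2 = 0 := by rw [neg_smul, ← sub_eq_add_neg]; exact h2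
    exact hb (neg_eq_zero.1 (hli _ _ h3).2)
  have hb' : b' = 0 := by
    by_contra hb'
    have h1 := hsc w2
    rw [hab', hboth a' b' ha' hb', hs2, hncard] at h1
    omega
  rw [hb', zero_smul, add_zero] at hab'
  have hyy : τ (y * y) w1 = (b * a') • w1 := by
    rw [map_mul]
    change τ y (τ y w1) = _
    rw [hab, map_smul, hab', smul_smul]
  have hpow : ∀ m : ℕ, τ ((y * y) ^ m) w1 = ((b * a') ^ m) • w1 := by
    intro m
    induction m with
    | zero => rw [pow_zero, pow_zero, one_smul, map_one]; rfl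
    | succ m ih =>
      rw [pow_succ, map_mul]
      change τ ((y * y) ^ m) (τ (y * y) w1) = _
      rw [hyy, map_smul, ih, smul_smul, pow_succ]
      congr 1; ring
  obtain ⟨k, hk⟩ := hQ ⟨y, hy⟩
  have hk' : y ^ (q ^ k) = 1 := by
    have := congrArg Subtype.val hk
    simpa using this
  have hodd : Odd (q ^ k) := (hq.out.odd_of_ne_two hq2).pow
  obtain ⟨m, hm⟩ := hodd
  have hym : (y * y) ^ (m + 1) = y := by
    rw [← pow_two, ← pow_mul]
    have : 2 * (m + 1) = q ^ k + 1 := by omega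
    rw [this, pow_succ, hk', one_mul]
  have h5 := hpow (m + 1)
  rw [hym, hab] at h5
  have h6 : (-((b * a') ^ (m + 1))) • w1 + b • w2 = 0 := by rw [h5, neg_smul]; abel
  exact hb (hli _ _ h6).2

end Cfsg.Agent.H24.Orb5
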