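import Mathlib
import Cfsg.Agent.H24_Orb5
import Cfsg.Agent.H1_Hall

/-!
# Extension of scalars by coinduction
-/

set_option autoImplicit false
set_option linter.unusedSectionVars false

namespace Cfsg.Agent.H24.Orb6

open Cfsg.Agent.H24.Orb3 Cfsg.Agent.H24.Orb4

/-- linear maps from `K` -/
def HomK (K E : Type*) [Field K] [Algebra (ZMod 2) K] [AddCommGroup E] [Module (ZMod 2) E] : Type _ := K →ₗ[ZMod 2] E

variable {K E : Type*} [Field K] [Algebra (ZMod 2) K] [AddCommGroup E] [Module (ZMod 2) E]

noncomputable instance : AddCommGroup (HomK K E) := inferInstanceAs (AddCommGroup (K →ₗ[ZMod 2] E))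

/-- as a linear map -/
def toL (f : HomK K E) : K →ₗ[ZMod 2] E := f

/-- from a linear map -/
def ofL (f : K →ₗ[ZMod 2] E) : HomK K E := f

/-- the value -/
def ev (f : HomK K E) (x : K) : E := toL f x

noncomputable instance instModK : Module K (HomK K E) where
  smul a f := ofL (LinearMap.comp (toL f) (LinearMap.mulLeft (ZMod 2) a))
  one_smul f := by
    apply LinearMap.ext (R := ZMod 2)
    intro x
    change ev f (1 * x) = ev f x
    rw [one_mul]
  mul_smul a b f := by
    apply LinearMap.ext (R := ZMod 2)
    intro x
    change ev f (a * b * x) = ev f (b * (a * x))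
    congr 1; ring
  smul_zero a := by
    apply LinearMap.ext (R := ZMod 2)
    intro x
    rfl
  smul_add a f g := by
    apply LinearMap.ext (R := ZMod 2)
    intro x
    rfl
  add_smul a b f := by
    apply LinearMap.ext (R := ZMod 2)
    intro x
    change toL f ((a + b) * x) = toL f (a * x) + toL f (b * x)
    rw [add_mul, map_add]
  zero_smul f := by
    apply LinearMap.ext (R := ZMod 2)
    intro x
    change toL f (0 * x) = 0
    rw [zero_mul, map_zero]

theorem ev_ext {f g : HomK K E} (h : ∀ x, ev f x = ev g x) : f = g := LinearMap.ext (f := toL f) (g := toL g) h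

theorem ev_smul (a : K) (f : HomK K E) (x : K) : ev (a • f) x = ev f (a * x) := rfl

theorem ev_zero (x : K) : ev (0 : HomK K E) x = 0 := rfl

/-- the extended representation -/
noncomputable def repK {S : Type*} [Group S] (ρ : Representation (ZMod 2) S E) : Representation K S (HomK K E) where
  toFun g :=
    { toFun := fun f => ofL (LinearMap.comp (ρ g) (toL f))
      map_add' := by
        intro f f'
        apply ev_ext
        intro x
        exact map_add (ρ g) (ev f x) (ev f' x)
      map_smul' := by
        intro a f
        apply ev_ext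
        intro x
        rfl }
  map_one' := by
    apply LinearMap.ext
    intro f
    apply ev_ext
    intro x
    change ρ 1 (ev f x) = ev f x
    rw [map_one]; rfl
  map_mul' := by
    intro g h
    apply LinearMap.ext
    intro f
    apply ev_ext
    intro x
    change ρ (g * h) (ev f x) = ρ g (ρ h (ev f x))
    rw [map_mul]; rfl

theorem ev_repK {S : Type*} [Group S] (ρ : Representation (ZMod 2) S E) (g : S) (f : HomK K E) (x : K) :
    ev (repK ρ g f) x = ρ g (ev f x) := rfl

/-- maps into a subspace -/
noncomputable def sub (E₀ : Submodule (ZMod 2) E) : Submodule K (HomK K E) where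
  carrier := {f | ∀ x, ev f x ∈ E₀}
  add_mem' := by
    intro f g hf hg x
    exact E₀.add_mem (hf x) (hg x)
  zero_mem' := by
    intro x
    exact E₀.zero_mem
  smul_mem' := by
    intro a f hf x
    exact hf (a * x)

theorem mem_sub {E₀ : Submodule (ZMod 2) E} {f : HomK K E} : f ∈ (sub E₀ : Submodule K (HomK K E)) ↔ ∀ x, ev f x ∈ E₀ := Iff.rfl

theorem card_sub [Finite K] [Finite E] (E₀ : Submodule (ZMod 2) E) :
    Nat.card (sub E₀ : Submodule K (HomK K E)) = Nat.card E₀ ^ Module.finrank (ZMod 2) K := by
  let e : (sub E₀ : Submodule K (HomK K E)) ≃ (K →ₗ[ZMod 2] E₀) :=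
    { toFun := fun f => LinearMap.codRestrict E₀ (toL f.1) f.2
      invFun := fun g => ⟨ofL (E₀.subtype.comp g), fun x => (g x).2⟩
      left_inv := by
        intro f
        apply Subtype.ext
        apply ev_ext
        intro x
        rfl
      right_inv := by
        intro g
        apply LinearMap.ext
        intro x
        apply Subtype.ext
        rfl }
  rw [Nat.card_congr e, Module.natCard_eq_pow_finrank (K := ZMod 2) (V := (K →ₗ[ZMod 2] E₀)), Module.finrank_linearMap,
    Module.natCard_eq_pow_finrank (K := ZMod 2) (V := E₀), ← pow_mul, mul_comm]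

theorem finite_homK [Finite K] [Finite E] : Finite (HomK K E) :=
  Finite.of_injective (fun f : HomK K E => ev f) (fun f g h => ev_ext (fun x => congrFun h x))

end Cfsg.Agent.H24.Orb6
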