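import Mathlib
import Cfsg.Agent.H24_Orb6

/-!
# Fixed points of a `2`-group in characteristic `2`
-/

set_option autoImplicit false
set_option linter.unusedSectionVars false

namespace Cfsg.Agent.H24.Orb7

open Cfsg.Agent.H24.Orb3 Cfsg.Agent.H24.Orb4 Cfsg.Agent.H24.Orb5 Cfsg.Agent.H24.Orb6 Cfsg.Agent.H1.Hall

theorem enough (r : ℕ) [hr : Fact r.Prime] (hr2 : r ≠ 2) : HasEnoughRootsOfUnity (GaloisField 2 (r - 1)) r := by
  have hr1 : r - 1 ≠ 0 := by have := hr.out.two_le; omega
  haveI : Finite (GaloisField 2 (r - 1)) := inferInstance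
  haveI : NeZero r := ⟨hr.out.ne_zero⟩
  haveI := Fintype.ofFinite (GaloisField 2 (r - 1))ˣ
  have hc : Nat.card (GaloisField 2 (r - 1))ˣ = 2 ^ (r - 1) - 1 := by
    rw [Nat.card_units, GaloisField.card 2 (r - 1) hr1]
  have hd : r ∣ Fintype.card (GaloisField 2 (r - 1))ˣ := by
    rw [← Nat.card_eq_fintype_card, hc]
    have h1 : Nat.Coprime 2 r := (Nat.coprime_primes Nat.prime_two hr.out).2 (Ne.symm hr2)
    have h2 := Nat.ModEq.pow_totient h1
    rw [Nat.totient_prime hr.out] at h2
    exact (Nat.modEq_iff_dvd' Nat.one_le_two_pow).1 h2.symm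
  obtain ⟨ζ, hζ⟩ := exists_prime_orderOf_dvd_card r hd
  constructor
  · refine ⟨(ζ : GaloisField 2 (r - 1)), ?_⟩
    rw [IsPrimitiveRoot.coe_units_iff]
    have h3 := IsPrimitiveRoot.orderOf ζ
    rw [hζ] at h3
    exact h3
  · exact rootsOfUnity.isCyclic _ _

theorem final {S : Type*} [Group S] [Finite S] [Group.IsSolvable S] (p q : ℕ) (hp : p.Prime) (hq : q.Prime)
    (hp2 : p ≠ 2) (hq2 : q ≠ 2)
    (T P Q : Subgroup S) (hT : IsPGroup 2 T) (hPp : IsPGroup p P) [hPN : P.Normal]
    (hPmin : ∀ N : Subgroup S, N.Normal → N ≤ P → N = ⊥ ∨ N = P) (hPb : P ≠ ⊥)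
    (hQ : Nat.card Q = q) (hcomm : ⁅P, Q⁆ = P)
    {E : Type*} [AddCommGroup E] [Module (ZMod 2) E] [Finite E] (ρ : Representation (ZMod 2) S E) (hE : Nontrivial E)
    (hirr : ∀ N : Submodule (ZMod 2) E, (∀ s : S, ∀ m ∈ N, ρ s m ∈ N) → N = ⊥ ∨ N = ⊤)
    (hfaith : ∀ x ∈ P, ρ x = 1 → x = 1) :
    8 ≤ Nat.card {v : E // ∀ s ∈ T, ρ s v = v} ∨
      (Nat.card {v : E // ∀ s ∈ T, ρ s v = v} = 4 ∧
        ∃ x ∈ Q, ∃ v : E, (∀ s ∈ T, ρ s v = v) ∧ ¬ ∀ s ∈ T, ρ s (ρ x v) = ρ x v) := by
  obtain ⟨hPc, r, hr, hPr⟩ := minimal_normal_elementary P hPb hPmin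
  haveI hrf : Fact r.Prime := ⟨hr⟩
  haveI hqf : Fact q.Prime := ⟨hq⟩
  haveI hpf : Fact p.Prime := ⟨hp⟩
  obtain ⟨x0, hx0, hx01⟩ := (Subgroup.bot_or_exists_ne_one P).resolve_left hPb
  have hrp : r = p := by
    obtain ⟨k, hk⟩ := hPp ⟨x0, hx0⟩
    have h1 : x0 ^ (p ^ k) = 1 := by simpa using congrArg Subtype.val hk
    have h2 : orderOf x0 = r := orderOf_eq_prime (hPr x0 hx0) hx01
    have h3 : r ∣ p ^ k := by rw [← h2]; exact orderOf_dvd_of_pow_eq_one h1
    exact (Nat.prime_dvd_prime_iff_eq hr hp).1 (hr.dvd_of_dvd_pow h3)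
  have hr2 : r ≠ 2 := by rw [hrp]; exact hp2
  have hr1 : r - 1 ≠ 0 := by have := hr.two_le; omega
  letI : CommGroup P := { (inferInstance : Group P) with mul_comm := fun a b => hPc.is_comm.comm a b }
  letI : Fintype P := Fintype.ofFinite P
  let K := GaloisField 2 (r - 1)
  haveI hKf : Finite K := inferInstance
  haveI : CharP K 2 := inferInstance
  haveI hen : HasEnoughRootsOfUnity K r := enough r hr2
  haveI : NeZero r := ⟨hr.ne_zero⟩
  haveI hen' : HasEnoughRootsOfUnity K (Monoid.exponent P) := by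
    apply HasEnoughRootsOfUnity.of_dvd K (n := r)
    apply Monoid.exponent_dvd_of_forall_pow_eq_one
    intro x
    exact Subtype.ext (by simpa using hPr x x.2)
  haveI : Finite (P →* Kˣ) := Nat.finite_of_card_ne_zero (by
    rw [CommGroup.card_monoidHom_of_hasEnoughRootsOfUnity]
    exact Nat.card_pos.ne')
  haveI : Finite (HomK K E) := finite_homK
  haveI : Nontrivial (HomK K E) := by
    have h1 : 0 < Module.finrank (ZMod 2) (K →ₗ[ZMod 2] E) := by
      rw [Module.finrank_linearMap]
      exact Nat.mul_pos Module.finrank_pos Module.finrank_pos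
    exact (Module.nontrivial_of_finrank_pos (R := ZMod 2) h1 : Nontrivial (K →ₗ[ZMod 2] E))
  let σ : Representation K P (HomK K E) := (repK ρ).comp P.subtype
  have hA : ((Nat.card P : ℕ) : K) ≠ 0 := by
    intro h
    rw [CharP.cast_eq_zero_iff K 2] at h
    obtain ⟨n, hn⟩ := (IsPGroup.iff_card (p := p)).1 hPp
    rw [hn] at h
    exact hp2 ((Nat.prime_dvd_prime_iff_eq Nat.prime_two hp).1 (Nat.prime_two.dvd_of_dvd_pow h)).symm
  let E₀ : Submodule (ZMod 2) E :=
    { carrier := {v | ∀ s ∈ T, ρ s v = v}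
      add_mem' := by
        intro a b ha hb s hs
        rw [map_add, ha s hs, hb s hs]
      zero_mem' := by
        intro s _
        rw [map_zero]
      smul_mem' := by
        intro k a ha s hs
        rw [map_smul, ha s hs] }
  have hfix0 : ∀ e : E, (∀ x ∈ P, ρ x e = e) → e = 0 := by
    let C : Submodule (ZMod 2) E :=
      { carrier := {v | ∀ s ∈ P, ρ s v = v}
        add_mem' := by
          intro a b ha hb s hs
          rw [map_add, ha s hs, hb s hs]
        zero_mem' := by
          intro s _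
          rw [map_zero]
        smul_mem' := by
          intro k a ha s hs
          rw [map_smul, ha s hs] }
    have hC : C = ⊥ := by
      rcases hirr C (by
        intro s m hm x hx
        have h1 : s⁻¹ * x * s ∈ P := by
          have := hPN.conj_mem x hx s⁻¹
          rwa [inv_inv] at this
        have h2 := hm _ h1
        have h3 : ρ x (ρ s m) = ρ s (ρ (s⁻¹ * x * s) m) := by
          change (ρ x * ρ s) m = (ρ s * ρ (s⁻¹ * x * s)) m
          rw [← map_mul, ← map_mul]
          congr 2; group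
        rw [h3, h2]) with h | h
      · exact h
      · exfalso
        apply hx01
        apply hfaith x0 hx0
        apply LinearMap.ext
        intro e
        have : e ∈ C := by rw [h]; trivial
        exact this x0 hx0
    intro e he
    have : e ∈ C := he
    rwa [hC, Submodule.mem_bot] at this
  have e1 : ∀ (g h : S) (v : HomK K E), repK ρ g (repK ρ h v) = repK ρ (g * h) v := by
    intro g h v
    rw [map_mul]; rfl
  have key := core (K := K) (V := HomK K E) (A := P) (S := S) hA (MulAut.conjNormal (H := P)) σ (repK ρ)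
    (by
      intro g a v
      change repK ρ g (repK ρ (a : S) v) = repK ρ ((MulAut.conjNormal g a : P) : S) (repK ρ g v)
      rw [e1, e1, MulAut.conjNormal_apply, inv_mul_cancel_right])
    T Q hT hq2 (IsPGroup.of_card (n := 1) (by rw [hQ, pow_one]))
    (by
      intro χ hχ
      have h1 : ⁅P, Q⁆ ≤ (χ.ker).map P.subtype := by
        rw [Subgroup.commutator_le]
        intro x hx y hy
        refine ⟨⟨x, hx⟩ * MulAut.conjNormal y (⟨x, hx⟩ : P)⁻¹, ?_, ?_⟩
        · change χ _ = 1
          rw [map_mul]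
          have h2 := DFunLike.congr_fun (hχ y⁻¹ (inv_mem hy)) (⟨x, hx⟩ : P)⁻¹
          rw [ac_apply, inv_inv] at h2
          rw [h2, map_inv, mul_inv_cancel]
        · change x * ((MulAut.conjNormal y (⟨x, hx⟩ : P)⁻¹ : P) : S) = _
          rw [MulAut.conjNormal_apply, commutatorElement_def]
          change x * (y * x⁻¹ * y⁻¹) = _
          group
      rw [hcomm] at h1
      apply MonoidHom.ext
      intro a
      obtain ⟨b, hb, hba⟩ := h1 a.2
      have : b = a := Subtype.ext hba
      rw [← this]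
      exact hb)
    (by
      intro f hf
      apply ev_ext
      intro x
      rw [ev_zero]
      apply hfix0
      intro s hs
      rw [← ev_repK]
      exact congrArg (fun g => ev g x) (hf ⟨s, hs⟩))
    (sub E₀)
    (by
      intro f
      rw [mem_sub]
      constructor
      · intro h t ht
        apply ev_ext
        intro x
        rw [ev_repK]
        exact h x t ht
      · intro h x t ht
        rw [← ev_repK, h t ht])
  have hn : Module.finrank (ZMod 2) K = r - 1 := GaloisField.finrank 2 hr1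
  have hcard : Nat.card E₀ = 2 ^ Module.finrank K (sub E₀ : Submodule K (HomK K E)) := by
    have h1 := card_sub (K := K) E₀
    rw [hn, Module.natCard_eq_pow_finrank (K := K), GaloisField.card 2 (r - 1) hr1, ← pow_mul, mul_comm, pow_mul] at h1
    exact (Nat.pow_left_injective hr1 h1).symm
  have hcard' : Nat.card {v : E // ∀ s ∈ T, ρ s v = v} = 2 ^ Module.finrank K (sub E₀ : Submodule K (HomK K E)) := hcard
  rw [hcard']
  rcases key with h | ⟨h, y, hy, f, hf, hyf⟩
  · left
    exact (show 8 = 2 ^ 3 by norm_num) ▸ Nat.pow_le_pow_right (by norm_num) h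
  · right
    rw [h]
    refine ⟨by norm_num, y, hy, ?_⟩
    rw [mem_sub] at hyf
    push Not at hyf
    obtain ⟨x, hx⟩ := hyf
    exact ⟨ev f x, hf x, hx⟩

end Cfsg.Agent.H24.Orb7
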