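import Mathlib
import Cfsg.Agent.H22_PSolv
import Cfsg.Agent.H1_Coprime
import Cfsg.Agent.H1_Hall
import Cfsg.Agent.H11_Cores

/-! Groups whose maximal subgroups are `p`-nilpotent or of prime index. -/

namespace Cfsg.Agent.H24.PL

open Subgroup
open scoped Pointwise

universe u

variable {G : Type u} [Group G]

/-- `B / A` is a `p`-group -/
def IsP (p : ℕ) (A B : Subgroup G) : Prop := ∀ x ∈ B, ∃ k : ℕ, x ^ p ^ k ∈ A

/-- `B / A` is a `p'`-group -/
def IsQ (p : ℕ) (A B : Subgroup G) : Prop := ∀ x ∈ B, ∃ m : ℕ, m.Coprime p ∧ x ^ m ∈ A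

/-- the chain above `N` -/
def TN (p : ℕ) (N : Subgroup G) : Prop := ∃ A B C : Subgroup G, A.Normal ∧ B.Normal ∧ C.Normal ∧ N ≤ A ∧ A ≤ B ∧ B ≤ C ∧
  IsQ p N A ∧ IsP p A B ∧ IsQ p B C ∧ IsP p C ⊤

theorem IsP.inf {p : ℕ} {A B A' B' : Subgroup G} (h : IsP p A B) (h' : IsP p A' B') : IsP p (A ⊓ A') (B ⊓ B') := by
  rintro x ⟨hx, hx'⟩
  obtain ⟨k, hk⟩ := h x hx
  obtain ⟨k', hk'⟩ := h' x hx'
  refine ⟨k + k', ?_, ?_⟩
  · rw [pow_add, pow_mul]; exact pow_mem hk _
  · rw [pow_add, mul_comm, pow_mul]; exact pow_mem hk' _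

theorem IsQ.inf {p : ℕ} {A B A' B' : Subgroup G} (h : IsQ p A B) (h' : IsQ p A' B') : IsQ p (A ⊓ A') (B ⊓ B') := by
  rintro x ⟨hx, hx'⟩
  obtain ⟨k, hkc, hk⟩ := h x hx
  obtain ⟨k', hkc', hk'⟩ := h' x hx'
  refine ⟨k * k', Nat.Coprime.mul_left hkc hkc', ?_, ?_⟩
  · rw [pow_mul]; exact pow_mem hk _
  · rw [mul_comm, pow_mul]; exact pow_mem hk' _

theorem TN.inf {p : ℕ} {N N' : Subgroup G} (h : TN p N) (h' : TN p N') : TN p (N ⊓ N') := by
  obtain ⟨A, B, C, a1, a2, a3, a4, a5, a6, a7, a8, a9, a10⟩ := h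
  obtain ⟨A', B', C', b1, b2, b3, b4, b5, b6, b7, b8, b9, b10⟩ := h'
  refine ⟨A ⊓ A', B ⊓ B', C ⊓ C', inferInstance, inferInstance, inferInstance, inf_le_inf a4 b4, inf_le_inf a5 b5,
    inf_le_inf a6 b6, a7.inf b7, a8.inf b8, a9.inf b9, ?_⟩
  have := a10.inf b10
  rwa [top_inf_eq] at this

theorem TN.of_quot {p : ℕ} {N : Subgroup G} [N.Normal] (h : TN p (⊥ : Subgroup (G ⧸ N))) : TN p N := by
  obtain ⟨A, B, C, a1, a2, a3, a4, a5, a6, a7, a8, a9, a10⟩ := h
  refine ⟨A.comap (QuotientGroup.mk' N), B.comap (QuotientGroup.mk' N), C.comap (QuotientGroup.mk' N), inferInstance, inferInstance,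
    inferInstance, ?_, comap_mono a5, comap_mono a6, ?_, ?_, ?_, ?_⟩
  · exact QuotientGroup.le_comap_mk' N A
  · intro x hx
    obtain ⟨m, hm, h⟩ := a7 _ hx
    refine ⟨m, hm, ?_⟩
    rw [← map_pow, mem_bot] at h
    exact (QuotientGroup.eq_one_iff _).1 h
  · intro x hx
    obtain ⟨k, h⟩ := a8 _ hx
    exact ⟨k, by rw [mem_comap, map_pow]; exact h⟩
  · intro x hx
    obtain ⟨m, hm, h⟩ := a9 _ hx
    exact ⟨m, hm, by rw [mem_comap, map_pow]; exact h⟩
  · intro x _
    obtain ⟨k, h⟩ := a10 (QuotientGroup.mk' N x) (mem_top _)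
    exact ⟨k, by rw [mem_comap, map_pow]; exact h⟩

theorem IsQ.index [Finite G] {p : ℕ} [hp : Fact p.Prime] {B C : Subgroup G} [B.Normal] (hBC : B ≤ C) (h : IsQ p B C) :
    ¬ p ∣ B.relIndex C := by
  intro hd
  have hd' : p ∣ Nat.card (C ⧸ B.subgroupOf C) := hd
  obtain ⟨y, hy⟩ := exists_prime_orderOf_dvd_card' (G := C ⧸ B.subgroupOf C) p hd'
  obtain ⟨x, rfl⟩ := QuotientGroup.mk_surjective y
  obtain ⟨m, hm, hx⟩ := h x x.2
  have h1 : ((x : C ⧸ B.subgroupOf C)) ^ m = 1 := by
    rw [← QuotientGroup.mk_pow, QuotientGroup.eq_one_iff]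
    exact hx
  have h2 := orderOf_dvd_of_pow_eq_one h1
  rw [hy] at h2
  have h3 := Nat.Coprime.eq_one_of_dvd (Nat.coprime_comm.1 hm) h2
  exact hp.out.one_lt.ne' h3

theorem IsP.index [Finite G] {p : ℕ} [hp : Fact p.Prime] {A B : Subgroup G} [A.Normal] (h : IsP p A B) :
    ∃ k, A.relIndex B = p ^ k := by
  have hP : IsPGroup p (B ⧸ A.subgroupOf B) := by
    intro y
    obtain ⟨x, rfl⟩ := QuotientGroup.mk_surjective y
    obtain ⟨k, hk⟩ := h x x.2
    refine ⟨k, ?_⟩
    rw [← QuotientGroup.mk_pow, QuotientGroup.eq_one_iff]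
    exact hk
  exact IsPGroup.iff_card.1 hP

theorem IsP.top_index [Finite G] {p : ℕ} [hp : Fact p.Prime] {C : Subgroup G} [C.Normal] (h : IsP p C ⊤) :
    ∃ k, C.index = p ^ k := by
  have := h.index
  rwa [relIndex_top_right] at this

theorem IsQ.card [Finite G] {p : ℕ} [hp : Fact p.Prime] {A : Subgroup G} (h : IsQ p ⊥ A) : ¬ p ∣ Nat.card A := by
  have := IsQ.index (bot_le : ⊥ ≤ A) h
  rwa [relIndex_bot_left] at this

/-- powers modulo a normal subgroup -/
theorem pow_sup {N : Subgroup G} [N.Normal] {n g : G} (hn : n ∈ N) (m : ℕ) : ∃ n' ∈ N, (n * g) ^ m = n' * g ^ m := by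
  refine ⟨(n * g) ^ m * (g ^ m)⁻¹, ?_, by group⟩
  rw [← QuotientGroup.eq_one_iff]
  have h1 : ((n : G) : G ⧸ N) = 1 := (QuotientGroup.eq_one_iff n).2 hn
  simp only [QuotientGroup.mk_mul, QuotientGroup.mk_pow, QuotientGroup.mk_inv, h1, one_mul, mul_inv_cancel]

theorem normal_of_sup {N M L : Subgroup G} (h : N ⊔ M = ⊤) (hN : N ≤ normalizer (L : Set G)) (hM : M ≤ normalizer (L : Set G)) :
    L.Normal := by
  rw [← normalizer_eq_top_iff, eq_top_iff, ← h]
  exact sup_le hN hM

theorem le_norm {H L : Subgroup G} (h : ∀ g ∈ H, ∀ x ∈ L, g * x * g⁻¹ ∈ L) : H ≤ normalizer (L : Set G) := by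
  intro g hg
  rw [mem_normalizer_iff]
  intro x
  constructor
  · exact h g hg x
  · intro hx
    have h1 := h g⁻¹ (H.inv_mem hg) _ hx
    have h2 : g⁻¹ * (g * x * g⁻¹) * g⁻¹⁻¹ = x := by group
    rwa [h2] at h1

/-- the hypothesis on maximal subgroups -/
def Hmax (p : ℕ) (G : Type u) [Group G] : Prop :=
  ∀ M : Subgroup G, IsCoatom M → (∃ K : Subgroup ↥M, K.Normal ∧ ¬ p ∣ Nat.card K ∧ ∃ k : ℕ, K.index = p ^ k) ∨ (M.index).Prime

theorem Hmax.quot [Finite G] {p : ℕ} [hp : Fact p.Prime] (h : Hmax p G) (N : Subgroup G) [N.Normal] : Hmax p (G ⧸ N) := by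
  intro M' hM'
  obtain ⟨M, hM⟩ : ∃ M, M = M'.comap (QuotientGroup.mk' N) := ⟨_, rfl⟩
  have hco : IsCoatom M := by
    rw [hM]
    exact (isCoatom_comap_of_surjective (QuotientGroup.mk'_surjective N) hM')
  rcases h M hco with ⟨K, hK, hKp, k, hk⟩ | h1
  · left
    let r : M →* M' :=
      { toFun := fun x => ⟨QuotientGroup.mk' N x, by have h9 := hM.le x.2; exact h9⟩
        map_one' := Subtype.ext (map_one _)
        map_mul' := fun a b => Subtype.ext (map_mul (QuotientGroup.mk' N) _ _) }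
    have hr : Function.Surjective r := by
      rintro ⟨y, hy⟩
      obtain ⟨x, rfl⟩ := QuotientGroup.mk'_surjective N y
      exact ⟨⟨x, by rw [hM]; exact hy⟩, rfl⟩
    refine ⟨K.map r, hK.map r hr, ?_, ?_⟩
    · intro hd
      exact hKp (hd.trans (Subgroup.card_map_dvd K r))
    · have h2 := Subgroup.index_map_dvd K hr
      rw [hk] at h2
      obtain ⟨j, -, hj⟩ := (Nat.dvd_prime_pow hp.out).1 h2
      exact ⟨j, hj⟩
  · right
    rw [hM, Subgroup.index_comap_of_surjective _ (QuotientGroup.mk'_surjective N)] at h1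
    exact h1

/-- a minimal normal `p`-subgroup inside the Frattini subgroup -/
theorem tn_frat [Finite G] {p : ℕ} [hp : Fact p.Prime] {N : Subgroup G} [hN : N.Normal] (hNp : IsPGroup p N)
    (hF : N ≤ frattini G) (h : TN p N) : TN p (⊥ : Subgroup G) := by
  obtain ⟨A, B, C, a1, a2, a3, a4, a5, a6, a7, a8, a9, a10⟩ := h
  have h1 := IsQ.index a4 a7
  obtain ⟨k, hk⟩ := IsPGroup.iff_card.1 hNp
  have hcop : (Nat.card N).Coprime (N.relIndex A) := by
    rw [hk]
    exact Nat.Coprime.pow_left k ((Nat.Prime.coprime_iff_not_dvd hp.out).2 h1)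
  obtain ⟨H, hHA, hHc, hHN, hsup⟩ := H1.Coprime.sz_exists a4 (by rw [normalizer_eq_top]; exact le_top) hcop
  -- Frattini argument
  have hHn : H.Normal := by
    have h2 : N ⊔ normalizer (H : Set G) = ⊤ := by
      rw [eq_top_iff]
      intro g _
      have hle : MulAut.conj g • H ≤ H ⊔ N := by
        rw [hsup]
        rintro _ ⟨x, hx, rfl⟩
        exact a1.conj_mem x (hHA hx) g
      obtain ⟨n, hn, hn2⟩ := H1.Coprime.sz_internal (A := H) (B := MulAut.conj g • H) (K := N) (by
        rw [normalizer_eq_top]; exact le_top) hle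
        (Nat.card_congr (Subgroup.equivSMul (MulAut.conj g) H).toEquiv).symm (by rw [hHc]; exact hcop.symm)
        (Or.inr (by haveI := hNp.isNilpotent; infer_instance))
      have h3 : MulAut.conj (n⁻¹ * g) • H = H := by
        rw [map_mul, mul_smul, ← hn2, ← mul_smul, ← map_mul, inv_mul_cancel, map_one, one_smul]
      have h4 : n⁻¹ * g ∈ normalizer (H : Set G) := by
        rw [mem_normalizer_iff]
        intro x
        constructor
        · intro hx
          have : (n⁻¹ * g) * x * (n⁻¹ * g)⁻¹ ∈ MulAut.conj (n⁻¹ * g) • H := ⟨x, hx, rfl⟩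
          rwa [h3] at this
        · intro hx
          have : (n⁻¹ * g) * x * (n⁻¹ * g)⁻¹ ∈ MulAut.conj (n⁻¹ * g) • H := by rw [h3]; exact hx
          obtain ⟨y, hy, hyx⟩ := this
          have h5 : (n⁻¹ * g) * y * (n⁻¹ * g)⁻¹ = (n⁻¹ * g) * x * (n⁻¹ * g)⁻¹ := hyx
          have h6 : y = x := mul_left_cancel (mul_right_cancel h5)
          rw [← h6]; exact hy
      have h5 : g = n * (n⁻¹ * g) := by group
      rw [h5]
      exact mul_mem (mem_sup_left hn) (mem_sup_right h4)
    have h3 : normalizer (H : Set G) ⊔ frattini G = ⊤ := by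
      rw [eq_top_iff, ← h2]
      exact sup_le (hF.trans le_sup_right) le_sup_left
    have h4 := frattini_nongenerating h3
    exact normalizer_eq_top_iff.1 h4
  refine ⟨H, B, C, hHn, a2, a3, bot_le, hHA.trans a5, a6, ?_, ?_, a9, a10⟩
  · intro x hx
    refine ⟨Nat.card H, ?_, ?_⟩
    · rw [hHc]
      exact Nat.coprime_comm.1 ((Nat.Prime.coprime_iff_not_dvd hp.out).2 h1)
    · rw [mem_bot]
      have := pow_card_eq_one' (x := (⟨x, hx⟩ : H))
      exact congrArg Subtype.val this
  · intro x hx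
    obtain ⟨j, hj⟩ := a8 x hx
    rw [← hsup] at hj
    haveI := hHn
    -- `x ^ p ^ j = h * n`
    rw [← SetLike.mem_coe, Subgroup.normal_mul] at hj
    obtain ⟨y, hy, n, hn, hyn⟩ := hj
    obtain ⟨y', hy', h6⟩ := pow_sup (N := H) (g := n) hy (p ^ k)
    refine ⟨j + k, ?_⟩
    have hn1 : n ^ p ^ k = 1 := by
      have := pow_card_eq_one' (x := (⟨n, hn⟩ : N))
      rw [hk] at this
      exact congrArg Subtype.val this
    rw [pow_add, pow_mul, ← hyn]
    change (y * n) ^ p ^ k ∈ H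
    rw [h6, hn1, mul_one]
    exact hy'

theorem main_aux (p : ℕ) [hp : Fact p.Prime] : ∀ (c : ℕ) (G : Type u) [Group G] [Finite G], Nat.card G = c →
    Cfsg.IsPSolvable p G → Hmax p G → TN p (⊥ : Subgroup G) := by
  intro c
  induction c using Nat.strong_induction_on with
  | _ c ih =>
  intro G _ _ hc hsol hmax
  by_cases hnt : Nontrivial G
  swap
  · rw [not_nontrivial_iff_subsingleton] at hnt
    refine ⟨⊥, ⊥, ⊥, inferInstance, inferInstance, inferInstance, le_rfl, le_rfl, le_rfl, ?_, ?_, ?_, ?_⟩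
    · intro x hx; exact ⟨1, Nat.coprime_one_left p, by rw [pow_one]; exact hx⟩
    · intro x hx; exact ⟨0, by rw [pow_zero, pow_one]; exact hx⟩
    · intro x hx; exact ⟨1, Nat.coprime_one_left p, by rw [pow_one]; exact hx⟩
    · intro x _; exact ⟨0, by rw [Subsingleton.elim (x ^ p ^ 0) 1]; exact one_mem _⟩
  -- induction for quotients
  have hquot : ∀ N : Subgroup G, N.Normal → N ≠ ⊥ → TN p N := by
    intro N hN hNb
    haveI := hN
    apply TN.of_quot
    apply ih (Nat.card (G ⧸ N)) _ (G ⧸ N) rfl (H22.PSolv.isPSolvable_quotient N hsol) (hmax.quot N)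
    rw [← hc]
    have h1 := N.card_mul_index
    have h2 : 1 < Nat.card N := by
      rw [Finite.one_lt_card_iff_nontrivial]
      exact (Subgroup.nontrivial_iff_ne_bot N).2 hNb
    have h3 : 0 < Nat.card (G ⧸ N) := Nat.card_pos
    have h4 : Nat.card (G ⧸ N) = N.index := rfl
    rw [h4] at h3 ⊢
    nlinarith
  obtain ⟨N, hN, hNb, hmin⟩ := H1.Hall.exists_minimal_normal_of_nontrivial G
  have hTN := hquot N hN hNb
  haveI := hN
  obtain ⟨N', hN', hle', hNb', hfac⟩ := H22.PSolv.exists_normal_fac hsol N hNb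
  have hNN : N' = N := (hmin N' hN' hle').resolve_left hNb'
  rw [hNN] at hfac
  rcases hfac with ⟨k, hk⟩ | hcop
  swap
  · -- `N` is a `p'`-group
    obtain ⟨A, B, C, a1, a2, a3, a4, a5, a6, a7, a8, a9, a10⟩ := hTN
    refine ⟨A, B, C, a1, a2, a3, bot_le, a5, a6, ?_, a8, a9, a10⟩
    intro x hx
    obtain ⟨m, hm, hx2⟩ := a7 x hx
    refine ⟨m * Nat.card N, Nat.Coprime.mul_left hm hcop, ?_⟩
    rw [mem_bot, pow_mul]
    have := pow_card_eq_one' (x := (⟨x ^ m, hx2⟩ : N))
    exact congrArg Subtype.val this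
  have hNp : IsPGroup p N := IsPGroup.of_card hk
  by_cases hF : N ≤ frattini G
  · exact tn_frat hNp hF hTN
  -- a complement
  obtain ⟨M, hM, hNM⟩ : ∃ M : Subgroup G, IsCoatom M ∧ ¬ N ≤ M := by
    by_contra hcon
    push Not at hcon
    apply hF
    rw [frattini, Order.radical]
    apply le_iInf₂
    intro M hM
    exact hcon M hM
  have hsup : N ⊔ M = ⊤ := by
    rcases hM.le_iff.1 (le_sup_right : M ≤ N ⊔ M) with h | h
    · exact h
    · exact absurd (h ▸ le_sup_left) hNM
  -- `N` is abelian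
  have hNab : ∀ a ∈ N, ∀ b ∈ N, a * b = b * a := by
    haveI : Nontrivial N := (Subgroup.nontrivial_iff_ne_bot N).2 hNb
    have h1 : Nontrivial (center N) := hNp.center_nontrivial
    haveI h2 : ((center N).map N.subtype).Normal := by
      haveI : (center N).Characteristic := inferInstance
      exact H11.Cores.map_subtype_normal_of_characteristic N _
    have h3 : (center N).map N.subtype = N := by
      refine (hmin _ h2 (map_subtype_le _)).resolve_left ?_
      intro h4
      rw [Subgroup.map_eq_bot_iff_of_injective _ N.subtype_injective] at h4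
      exact (Subgroup.nontrivial_iff_ne_bot _).1 h1 h4
    intro a ha b hb
    rw [← h3] at ha
    obtain ⟨a', ha', rfl⟩ := ha
    have := mem_center_iff.1 ha' ⟨b, hb⟩
    exact (congrArg Subtype.val this).symm
  have hinf : N ⊓ M = ⊥ := by
    have hn : (N ⊓ M).Normal := by
      have hkey1 : ∀ n ∈ N, ∀ x ∈ N ⊓ M, n * x * n⁻¹ ∈ N ⊓ M := by
        intro n hn x hx
        have h1 := (Subgroup.mem_inf.1 hx).1
        have : n * x * n⁻¹ = x := by rw [hNab n hn x h1, mul_inv_cancel_right]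
        rw [this]; exact hx
      have hkey2 : ∀ m ∈ M, ∀ x ∈ N ⊓ M, m * x * m⁻¹ ∈ N ⊓ M := by
        intro m hm x hx
        exact Subgroup.mem_inf.2 ⟨hN.conj_mem x (Subgroup.mem_inf.1 hx).1 m,
          M.mul_mem (M.mul_mem hm (Subgroup.mem_inf.1 hx).2) (M.inv_mem hm)⟩
      exact normal_of_sup hsup (le_norm hkey1) (le_norm hkey2)
    refine (hmin _ hn inf_le_left).resolve_right ?_
    intro h; exact hNM (h ▸ inf_le_right)
  have hdec : ∀ g : G, ∃ n ∈ N, ∃ m ∈ M, g = n * m := by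
    intro g
    have : g ∈ N ⊔ M := by rw [hsup]; trivial
    rw [← SetLike.mem_coe, Subgroup.normal_mul] at this
    obtain ⟨n, hn, m, hm, h⟩ := this
    exact ⟨n, hn, m, hm, h.symm⟩
  have hPbot : IsP p ⊥ N := by
    intro x hx
    refine ⟨k, ?_⟩
    rw [mem_bot, ← hk]
    have := pow_card_eq_one' (x := (⟨x, hx⟩ : N))
    exact congrArg Subtype.val this
  have hQbot : IsQ p (⊥ : Subgroup G) ⊥ := fun x hx => ⟨1, Nat.coprime_one_left p, by rw [pow_one]; exact hx⟩
  rcases hmax M hM with ⟨K, hK, hKp, j, hj⟩ | hprime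
  · -- `M` is `p`-nilpotent
    obtain ⟨K', hK'⟩ : ∃ K', K' = K.map M.subtype := ⟨_, rfl⟩
    have hKc : Nat.card K' = Nat.card K := by rw [hK', Subgroup.card_map_of_injective M.subtype_injective]
    have hK'n : ∀ m ∈ M, ∀ x ∈ K', m * x * m⁻¹ ∈ K' := by
      rintro m hm x hx
      rw [hK'] at hx ⊢
      obtain ⟨y, hy, rfl⟩ := hx
      exact ⟨_, hK.conj_mem y hy ⟨m, hm⟩, rfl⟩
    have hCn : (N ⊔ K').Normal := by
      apply normal_of_sup hsup
      · exact le_sup_left.trans le_normalizer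
      · apply le_norm
        intro m hm x hx
        rw [← SetLike.mem_coe, Subgroup.normal_mul] at hx
        obtain ⟨n, hn, y, hy, rfl⟩ := hx
        have h1 : m * (n * y) * m⁻¹ = (m * n * m⁻¹) * (m * y * m⁻¹) := by group
        change m * (n * y) * m⁻¹ ∈ N ⊔ K'
        rw [h1]
        exact mul_mem (mem_sup_left (hN.conj_mem n hn m)) (mem_sup_right (hK'n m hm y hy))
    refine ⟨⊥, N, N ⊔ K', inferInstance, hN, hCn, le_rfl, bot_le, le_sup_left, hQbot, hPbot, ?_, ?_⟩
    · intro x hx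
      rw [← SetLike.mem_coe, Subgroup.normal_mul] at hx
      obtain ⟨n, hn, y, hy, rfl⟩ := hx
      refine ⟨Nat.card K', ?_, ?_⟩
      · rw [hKc]
        exact Nat.coprime_comm.1 ((Nat.Prime.coprime_iff_not_dvd hp.out).2 hKp)
      · obtain ⟨n', hn', h6⟩ := pow_sup (N := N) (g := y) hn (Nat.card K')
        have hy1 : y ^ Nat.card K' = 1 := by
          have := pow_card_eq_one' (x := (⟨y, hy⟩ : K'))
          exact congrArg Subtype.val this
        change (n * y) ^ Nat.card K' ∈ N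
        rw [h6, hy1, mul_one]
        exact hn'
    · intro x _
      obtain ⟨n, hn, m, hm, rfl⟩ := hdec x
      refine ⟨j, ?_⟩
      obtain ⟨n', hn', h6⟩ := pow_sup (N := N) (g := m) hn (p ^ j)
      rw [h6]
      refine mul_mem (mem_sup_left hn') (mem_sup_right ?_)
      rw [hK', ← hj]
      exact ⟨(⟨m, hm⟩ : M) ^ K.index, K.pow_index_mem _, rfl⟩
  · -- prime index
    have hcN : Nat.card N = M.index := by
      have h1 : Nat.card (N ⊔ M : Subgroup G) * Nat.card (N ⊓ M : Subgroup G) = Nat.card N * Nat.card M := by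
        rw [sup_comm, inf_comm, mul_comm (Nat.card N)]
        exact H1.Basic.card_sup_mul_card_inf (by rw [normalizer_eq_top]; exact le_top)
      rw [hsup, hinf, Subgroup.card_bot, mul_one, Subgroup.card_top] at h1
      have h2 := M.card_mul_index
      have h3 : 0 < Nat.card M := Nat.card_pos
      rw [← h2, mul_comm] at h1
      exact (Nat.eq_of_mul_eq_mul_right h3 h1).symm
    have hk1 : Nat.card N = p := by
      rw [← hcN, hk] at hprime
      have := (Nat.Prime.eq_one_of_pow hprime)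
      rw [hk, this, pow_one]
    obtain ⟨E, hE⟩ : ∃ E, E = centralizer (N : Set G) ⊓ M := ⟨_, rfl⟩
    haveI hCn : (centralizer (N : Set G)).Normal := inferInstance
    have hEn : E.Normal := by
      have hkey1 : ∀ n ∈ N, ∀ x ∈ E, n * x * n⁻¹ ∈ E := by
        intro n hn x hx
        rw [hE] at hx
        have h1 : n * x * n⁻¹ = x := by
          rw [mem_centralizer_iff.1 (Subgroup.mem_inf.1 hx).1 n hn, mul_inv_cancel_right]
        rw [h1, hE]; exact hx
      have hkey2 : ∀ m ∈ M, ∀ x ∈ E, m * x * m⁻¹ ∈ E := by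
        intro m hm x hx
        rw [hE] at hx ⊢
        exact Subgroup.mem_inf.2 ⟨hCn.conj_mem x (Subgroup.mem_inf.1 hx).1 m,
          M.mul_mem (M.mul_mem hm (Subgroup.mem_inf.1 hx).2) (M.inv_mem hm)⟩
      exact normal_of_sup hsup (le_norm hkey1) (le_norm hkey2)
    by_cases hEb : E = ⊥
    · -- `M` embeds in `Aut(N)`
      have hMc : ¬ p ∣ Nat.card M := by
        haveI hcy : IsCyclic N := isCyclic_of_prime_card hk1
        have h1 : Nat.card (MulAut N) = p - 1 := by
          rw [IsCyclic.card_mulAut, hk1, Nat.totient_prime hp.out]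
        let f : M →* MulAut N := (MulAut.conjNormal : G →* MulAut N).comp M.subtype
        have hf : Function.Injective f := by
          rw [injective_iff_map_eq_one]
          intro m hm
          have h2 : (m : G) ∈ E := by
            rw [hE]
            refine Subgroup.mem_inf.2 ⟨?_, m.2⟩
            rw [mem_centralizer_iff]
            intro n hn
            have h3 := congrArg (fun φ : MulAut N => ((φ ⟨n, hn⟩ : N) : G)) hm
            have h4 : (m : G) * n * (m : G)⁻¹ = n := by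
              have h5 : ((f m ⟨n, hn⟩ : N) : G) = (m : G) * n * (m : G)⁻¹ :=
              MulAut.conjNormal_apply (m : G) (⟨n, hn⟩ : N)
              rw [← h5]; exact h3
            rw [mul_inv_eq_iff_eq_mul] at h4
            exact h4.symm
          rw [hEb, mem_bot] at h2
          exact Subtype.ext h2
        intro hd
        have h2 : Nat.card M ∣ Nat.card (MulAut N) := by
          rw [Nat.card_congr (MonoidHom.ofInjective hf).toEquiv]
          exact Subgroup.card_subgroup_dvd_card _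
        rw [h1] at h2
        have h3 := Nat.le_of_dvd (by have := hp.out.two_le; omega) (hd.trans h2)
        have := hp.out.two_le
        omega
      refine ⟨⊥, N, ⊤, inferInstance, hN, inferInstance, le_rfl, bot_le, le_top, hQbot, hPbot, ?_, ?_⟩
      · intro x _
        obtain ⟨n, hn, m, hm, rfl⟩ := hdec x
        refine ⟨Nat.card M, Nat.coprime_comm.1 ((Nat.Prime.coprime_iff_not_dvd hp.out).2 hMc), ?_⟩
        obtain ⟨n', hn', h6⟩ := pow_sup (N := N) (g := m) hn (Nat.card M)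
        have hm1 : m ^ Nat.card M = 1 := by
          have := pow_card_eq_one' (x := (⟨m, hm⟩ : M))
          exact congrArg Subtype.val this
        rw [h6, hm1, mul_one]
        exact hn'
      · intro x _; exact ⟨0, trivial⟩
    · have h1 := hTN.inf (hquot E hEn hEb)
      have h2 : N ⊓ E = ⊥ := by
        rw [eq_bot_iff, ← hinf, hE]
        exact le_inf inf_le_left (inf_le_right.trans inf_le_right)
      rwa [h2] at h1

end Cfsg.Agent.H24.PL
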