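import Mathlib
import Cfsg.Agent.H24_SRank

/-! Sectional rank: subgroups, isomorphisms, and the situation of a non-normal centralizer. -/

set_option autoImplicit false

open Subgroup

namespace Cfsg.Agent.H24.SRank

universe u v

variable {G : Type u} [Group G] {p k : ℕ}

theorem Sec.map {G' : Type v} [Group G'] {A B : Subgroup G} (h : Sec p A B) (f : G →* G') :
    Sec p (A.map f) (B.map f) := by
  refine ⟨map_mono h.le, ?_, ?_, ?_⟩
  · rintro _ ⟨a, ha, rfl⟩ _ ⟨b, hb, rfl⟩
    exact ⟨a * b * a⁻¹, h.nrm a ha b hb, by simp⟩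
  · rintro _ ⟨a, ha, rfl⟩ _ ⟨b, hb, rfl⟩
    exact ⟨a * b * a⁻¹ * b⁻¹, h.com a ha b hb, by simp⟩
  · rintro _ ⟨a, ha, rfl⟩
    exact ⟨a ^ p, h.pow a ha, by simp⟩

theorem of_injective {G' : Type v} [Group G'] (f : G →* G') (hf : Function.Injective f)
    (h : Cfsg.SectionalPRankLE p k G') : Cfsg.SectionalPRankLE p k G := by
  apply of_sec
  intro A B hAB
  have h1 := (hAB.map f).relIndex_le h
  rwa [relIndex_map_map_of_injective _ _ hf] at h1

/-- `P × P^σ` has sectional rank at least twice the one of `P` -/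
theorem half [Finite G] (hr : Cfsg.SectionalPRankLE 2 4 G) (P Q : Subgroup G) [hPn : P.Normal] [hQn : Q.Normal]
    (hPQ : P ⊓ Q = ⊥) (e : P ≃* Q) : Cfsg.SectionalPRankLE 2 2 P := by
  apply of_sec
  intro A B hAB
  have hcommPQ : ∀ x ∈ P, ∀ y ∈ Q, x * y = y * x := by
    intro x hx y hy
    have h1 : x * y * x⁻¹ * y⁻¹ ∈ P ⊓ Q := by
      refine mem_inf.2 ⟨?_, ?_⟩
      · have := P.mul_mem hx (hPn.conj_mem _ (P.inv_mem hx) y)
        have e : x * y * x⁻¹ * y⁻¹ = x * (y * x⁻¹ * y⁻¹) := by group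
        rwa [e]
      · exact Q.mul_mem (hQn.conj_mem y hy x) (Q.inv_mem hy)
    rw [hPQ, mem_bot] at h1
    calc x * y = (x * y * x⁻¹ * y⁻¹) * (y * x) := by group
      _ = y * x := by rw [h1, one_mul]
  let f : P →* G := P.subtype
  let g : P →* G := Q.subtype.comp e.toMonoidHom
  have hf : Function.Injective f := P.subtype_injective
  have hg : Function.Injective g := Q.subtype_injective.comp e.injective
  have s1 := hAB.map f
  have s2 := hAB.map g
  have l1 : A.map f ≤ P := by rintro _ ⟨a, -, rfl⟩; exact a.2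
  have l2 : A.map g ≤ Q := by rintro _ ⟨a, -, rfl⟩; exact (e a).2
  have hcc : ∀ x ∈ A.map f, ∀ y ∈ A.map g, x * y = y * x := fun x hx y hy => hcommPQ x (l1 hx) y (l2 hy)
  have n1 : A.map f ≤ normalizer ((A.map g : Subgroup G) : Set G) := by
    intro x hx
    rw [mem_set_normalizer_iff]
    intro y
    constructor
    · intro hy
      have : x * y * x⁻¹ = y := by rw [hcc x hx y hy]; group
      rw [this]; exact hy
    · intro hy
      have h1 := hcc x⁻¹ (inv_mem hx) _ hy
      have : y = x * y * x⁻¹ := by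
        calc y = x⁻¹ * (x * y * x⁻¹) * x := by group
          _ = x * y * x⁻¹ := by rw [h1]; group
      rw [this]; exact hy
  have n2 : B.map f ≤ normalizer ((B.map g : Subgroup G) : Set G) := by
    intro x hx
    rw [mem_set_normalizer_iff]
    have hx' : x ∈ A.map f := s1.le hx
    intro y
    constructor
    · intro hy
      have : x * y * x⁻¹ = y := by rw [hcc x hx' y (s2.le hy)]; group
      rw [this]; exact hy
    · intro hy
      have h1 := hcc x⁻¹ (inv_mem hx') _ (s2.le hy)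
      have : y = x * y * x⁻¹ := by
        calc y = x⁻¹ * (x * y * x⁻¹) * x := by group
          _ = x * y * x⁻¹ := by rw [h1]; group
      rw [this]; exact hy
  have hdec : ∀ (X Y : Subgroup G), X ≤ A.map f → Y ≤ A.map g → ∀ w ∈ X ⊔ Y, ∃ x ∈ X, ∃ y ∈ Y, w = x * y := by
    intro X Y hX hY w hw
    have hn : X ≤ normalizer ((Y : Subgroup G) : Set G) := by
      intro x hx
      rw [mem_set_normalizer_iff]
      intro y
      constructor
      · intro hy
        have : x * y * x⁻¹ = y := by rw [hcc x (hX hx) y (hY hy)]; group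
        rw [this]; exact hy
      · intro hy
        have h1 := hcc x⁻¹ (inv_mem (hX hx)) _ (hY hy)
        have : y = x * y * x⁻¹ := by
          calc y = x⁻¹ * (x * y * x⁻¹) * x := by group
            _ = x * y * x⁻¹ := by rw [h1]; group
        rw [this]; exact hy
    rw [← SetLike.mem_coe, Subgroup.coe_mul_of_left_le_normalizer_right _ _ hn] at hw
    obtain ⟨x, hx, y, hy, e⟩ := Set.mem_mul.1 hw
    exact ⟨x, hx, y, hy, e.symm⟩
  have hsec : Sec 2 (A.map f ⊔ A.map g) (B.map f ⊔ B.map g) := by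
    refine ⟨sup_le_sup s1.le s2.le, ?_, ?_, ?_⟩
    · intro u hu v hv
      obtain ⟨x, hx, y, hy, rfl⟩ := hdec _ _ le_rfl le_rfl u hu
      obtain ⟨x', hx', y', hy', rfl⟩ := hdec _ _ s1.le s2.le v hv
      have e1 : x * y * (x' * y') * (x * y)⁻¹ = (x * x' * x⁻¹) * (y * y' * y⁻¹) := by
        have c1 := hcc x' (s1.le hx') y hy
        have c2 := hcc x⁻¹ (inv_mem hx) (y * y' * y⁻¹) (mul_mem (mul_mem hy (s2.le hy')) (inv_mem hy))
        calc x * y * (x' * y') * (x * y)⁻¹ = x * (y * x') * y' * y⁻¹ * x⁻¹ := by group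
          _ = x * (x' * y) * y' * y⁻¹ * x⁻¹ := by rw [c1]
          _ = x * x' * ((y * y' * y⁻¹) * x⁻¹) := by group
          _ = x * x' * (x⁻¹ * (y * y' * y⁻¹)) := by rw [c2]
          _ = _ := by group
      rw [e1]
      exact mul_mem (mem_sup_left (s1.nrm x hx x' hx')) (mem_sup_right (s2.nrm y hy y' hy'))
    · intro u hu v hv
      obtain ⟨x, hx, y, hy, rfl⟩ := hdec _ _ le_rfl le_rfl u hu
      obtain ⟨x', hx', y', hy', rfl⟩ := hdec _ _ le_rfl le_rfl v hv
      have e1 : x * y * (x' * y') * (x * y)⁻¹ * (x' * y')⁻¹ = (x * x' * x⁻¹ * x'⁻¹) * (y * y' * y⁻¹ * y'⁻¹) := by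
        have c1 := hcc x' hx' y hy
        have c2 := hcc x⁻¹ (inv_mem hx) (y * y' * y⁻¹ * y'⁻¹)
          (mul_mem (mul_mem (mul_mem hy hy') (inv_mem hy)) (inv_mem hy'))
        have c3 := hcc x'⁻¹ (inv_mem hx') (y * y' * y⁻¹ * y'⁻¹)
          (mul_mem (mul_mem (mul_mem hy hy') (inv_mem hy)) (inv_mem hy'))
        have c4 := hcc x⁻¹ (inv_mem hx) y'⁻¹ (inv_mem hy')
        calc x * y * (x' * y') * (x * y)⁻¹ * (x' * y')⁻¹ = x * (y * x') * y' * y⁻¹ * (x⁻¹ * y'⁻¹) * x'⁻¹ := by group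
          _ = x * (x' * y) * y' * y⁻¹ * (y'⁻¹ * x⁻¹) * x'⁻¹ := by rw [c1, c4]
          _ = x * x' * ((y * y' * y⁻¹ * y'⁻¹) * x⁻¹) * x'⁻¹ := by group
          _ = x * x' * (x⁻¹ * (y * y' * y⁻¹ * y'⁻¹)) * x'⁻¹ := by rw [c2]
          _ = x * x' * x⁻¹ * ((y * y' * y⁻¹ * y'⁻¹) * x'⁻¹) := by group
          _ = x * x' * x⁻¹ * (x'⁻¹ * (y * y' * y⁻¹ * y'⁻¹)) := by rw [c3]
          _ = _ := by group
      rw [e1]
      exact mul_mem (mem_sup_left (s1.com x hx x' hx')) (mem_sup_right (s2.com y hy y' hy'))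
    · intro u hu
      obtain ⟨x, hx, y, hy, rfl⟩ := hdec _ _ le_rfl le_rfl u hu
      have e1 : (x * y) ^ 2 = x ^ 2 * y ^ 2 := (show Commute x y from hcc x hx y hy).mul_pow 2
      rw [e1]
      exact mul_mem (mem_sup_left (s1.pow x hx)) (mem_sup_right (s2.pow y hy))
  have h5 := hsec.relIndex_le hr
  have h6 := H1.Basic.card_sup_mul_card_inf n1
  have h7 := H1.Basic.card_sup_mul_card_inf n2
  have i1 : A.map f ⊓ A.map g = ⊥ := by
    rw [eq_bot_iff, ← hPQ]; exact inf_le_inf l1 l2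
  have i2 : B.map f ⊓ B.map g = ⊥ := by
    rw [eq_bot_iff, ← i1]; exact inf_le_inf s1.le s2.le
  rw [i1, card_bot, mul_one] at h6
  rw [i2, card_bot, mul_one] at h7
  have c1 : Nat.card (A.map f) = Nat.card A := (Nat.card_congr (A.equivMapOfInjective f hf).toEquiv).symm
  have c2 : Nat.card (A.map g) = Nat.card A := (Nat.card_congr (A.equivMapOfInjective g hg).toEquiv).symm
  have c3 : Nat.card (B.map f) = Nat.card B := (Nat.card_congr (B.equivMapOfInjective f hf).toEquiv).symm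
  have c4 : Nat.card (B.map g) = Nat.card B := (Nat.card_congr (B.equivMapOfInjective g hg).toEquiv).symm
  rw [c1, c2] at h6
  rw [c3, c4] at h7
  have h8 := H1.Basic.relIndex_mul_card hsec.le
  have h9 := H1.Basic.relIndex_mul_card hAB.le
  rw [h6, h7] at h8
  have hB : 0 < Nat.card B := Nat.card_pos
  have h10 : (B.map f ⊔ B.map g).relIndex (A.map f ⊔ A.map g) = B.relIndex A * B.relIndex A := by
    apply Nat.eq_of_mul_eq_mul_right (Nat.mul_pos hB hB)
    rw [h8, ← h9]; ring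
  rw [h10] at h5
  by_contra hlt
  push Not at hlt
  have : 5 ≤ B.relIndex A := by omega
  nlinarith

end Cfsg.Agent.H24.SRank
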