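import Mathlib
import Cfsg.Agent.H24_SRank2

/-! The situation of S4401. -/

set_option autoImplicit false

open Subgroup

namespace Cfsg.Agent.H24.SRank

universe u

variable {S : Type u} [Group S]

structure Facts (P S₀ : Subgroup S) (x : S) : Prop where
  dis : ∀ a ∈ P, x⁻¹ * a * x ∈ P → a = 1
  com : ∀ a ∈ P, ∀ b ∈ P, a * (x * b * x⁻¹) = (x * b * x⁻¹) * a
  cen : ∀ c ∈ S₀, (∀ a ∈ P, c * a = a * c) → (∀ a ∈ P, c * (x * a * x⁻¹) = (x * a * x⁻¹) * c) →
    ∃ a ∈ P, ∃ b ∈ P, c = a * (x * b * x⁻¹)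

theorem facts [Finite S] (h2 : IsPGroup 2 S) (hr : Cfsg.SectionalPRankLE 2 4 S)
    (P S₀ : Subgroup S) (hPS : P ≤ S₀) (hP : ¬ IsMulCommutative ↥P) (hZP : Nat.card ↥(center ↥P) = 2)
    (hPn : ∀ s ∈ S₀, ∀ a ∈ P, s * a * s⁻¹ ∈ P) (x : S) (hx : x ∈ normalizer (S₀ : Set S))
    (z : S) (hz : z ∈ P) (hzc : ∀ a ∈ P, z * a = a * z)
    (hne : ∀ _ : x * z * x⁻¹ ∈ P, ¬ ∀ a ∈ P, (x * z * x⁻¹) * a = a * (x * z * x⁻¹)) :
    Facts P S₀ x ∧ Cfsg.SectionalPRankLE 2 2 P := by
  let P₀ : Subgroup S₀ := P.subgroupOf S₀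
  haveI hP₀ : P₀.Normal := by
    constructor
    intro a ha s
    rw [mem_subgroupOf] at ha ⊢
    exact hPn s s.2 a ha
  let σ : MulAut S₀ := S₀.normalizerMonoidHom ⟨x, hx⟩
  have hσ : ∀ t : S₀, ((σ t : S₀) : S) = x * t * x⁻¹ := fun t => rfl
  let Q₀ : Subgroup S₀ := P₀.map σ.toMonoidHom
  haveI hQ₀ : Q₀.Normal := hP₀.map _ σ.surjective
  let e : P₀ ≃* P := subgroupOfEquivOfLe hPS
  let e' : P₀ ≃* Q₀ := P₀.equivMapOfInjective σ.toMonoidHom σ.injective
  have hr' : Cfsg.SectionalPRankLE 2 4 S₀ := of_injective S₀.subtype S₀.subtype_injective hr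
  have ncP : ¬ IsMulCommutative ↥P₀ := by
    intro h
    apply hP
    refine ⟨⟨fun a b => ?_⟩⟩
    obtain ⟨a, rfl⟩ := e.surjective a
    obtain ⟨b, rfl⟩ := e.surjective b
    rw [← map_mul, ← map_mul, h.is_comm.comm a b]
  have ncQ : ¬ IsMulCommutative ↥Q₀ := by
    intro h
    apply ncP
    refine ⟨⟨fun a b => ?_⟩⟩
    apply e'.injective
    rw [map_mul, map_mul, h.is_comm.comm (e' a) (e' b)]
  have cP : Nat.card ↥(center ↥P₀) = 2 := by
    rw [Nat.card_congr (Subgroup.centerCongr e).toEquiv, hZP]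
  have cQ : Nat.card ↥(center ↥Q₀) = 2 := by
    rw [← Nat.card_congr (Subgroup.centerCongr e').toEquiv, cP]
  have hzS : z ∈ S₀ := hPS hz
  have hz0 : (⟨z, hzS⟩ : S₀) ∈ P₀ := mem_subgroupOf.2 hz
  have hne' : (center ↥P₀).map P₀.subtype ≠ (center ↥Q₀).map Q₀.subtype := by
    intro heq
    have h1 : (⟨⟨z, hzS⟩, hz0⟩ : P₀) ∈ center P₀ := by
      rw [mem_center_iff]
      rintro ⟨⟨a, haS⟩, ha⟩
      apply Subtype.ext
      apply Subtype.ext
      exact (hzc a (mem_subgroupOf.1 ha)).symm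
    have h3 : e' ⟨⟨z, hzS⟩, hz0⟩ ∈ center Q₀ := by
      rw [mem_center_iff]
      intro g
      obtain ⟨g, rfl⟩ := e'.surjective g
      rw [← map_mul, ← map_mul, mem_center_iff.1 h1 g]
    have h4 : ((e' ⟨⟨z, hzS⟩, hz0⟩ : Q₀) : S₀) ∈ (center ↥P₀).map P₀.subtype := by
      rw [heq]
      exact ⟨_, h3, rfl⟩
    obtain ⟨w, hw, hwe⟩ := h4
    have h5 : ((w : S₀) : S) = x * z * x⁻¹ := congrArg Subtype.val hwe
    have h6 : x * z * x⁻¹ ∈ P := by rw [← h5]; exact mem_subgroupOf.1 w.2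
    apply hne h6
    intro a ha
    have h7 := mem_center_iff.1 hw ⟨⟨a, hPS ha⟩, mem_subgroupOf.2 ha⟩
    have h8 := congrArg (fun t : P₀ => ((t : S₀) : S)) h7
    have h9 : a * ((w : S₀) : S) = ((w : S₀) : S) * a := h8
    rw [h5] at h9
    exact h9.symm
  have hdis := disjoint_of (h2.to_subgroup S₀) P₀ Q₀ cP cQ hne'
  have hcen := centralizer_le_of (h2.to_subgroup S₀) hr' P₀ Q₀ ncP ncQ cP cQ hdis
  have hcom : ∀ a ∈ P₀, ∀ b ∈ Q₀, a * b = b * a := by
    intro a ha b hb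
    exact (Subgroup.commute_of_normal_of_disjoint P₀ Q₀ hP₀ hQ₀ (disjoint_iff.2 hdis) a b ha hb).eq
  refine ⟨⟨?_, ?_, ?_⟩, ?_⟩
  · intro a ha ha'
    have h1 : (⟨a, hPS ha⟩ : S₀) ∈ P₀ ⊓ Q₀ := by
      refine mem_inf.2 ⟨mem_subgroupOf.2 ha, ⟨⟨x⁻¹ * a * x, hPS ha'⟩, mem_subgroupOf.2 ha', ?_⟩⟩
      apply Subtype.ext
      show x * (x⁻¹ * a * x) * x⁻¹ = a
      group
    rw [hdis, mem_bot] at h1
    exact congrArg Subtype.val h1
  · intro a ha b hb
    have h1 := hcom ⟨a, hPS ha⟩ (mem_subgroupOf.2 ha) (σ ⟨b, hPS hb⟩) ⟨_, mem_subgroupOf.2 hb, rfl⟩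
    exact congrArg Subtype.val h1
  · intro c hc h1 h3
    have h4 : (⟨c, hc⟩ : S₀) ∈ centralizer ((P₀ ⊔ Q₀ : Subgroup S₀) : Set S₀) := by
      rw [mem_centralizer_iff]
      intro w hw
      rw [Subgroup.normal_mul] at hw
      obtain ⟨a, ha, b, hb, rfl⟩ := Set.mem_mul.1 hw
      obtain ⟨b', hb', rfl⟩ := hb
      apply Subtype.ext
      show (a : S) * (x * b' * x⁻¹) * c = c * (a * (x * b' * x⁻¹))
      rw [mul_assoc, ← h3 b' (mem_subgroupOf.1 hb'), ← mul_assoc, ← h1 a (mem_subgroupOf.1 ha), mul_assoc]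
    have h5 := hcen h4
    rw [← SetLike.mem_coe, Subgroup.normal_mul] at h5
    obtain ⟨a, ha, b, hb, hab⟩ := Set.mem_mul.1 h5
    obtain ⟨b', hb', rfl⟩ := hb
    exact ⟨a, mem_subgroupOf.1 ha, b', mem_subgroupOf.1 hb', (congrArg Subtype.val hab).symm⟩
  · have h1 := half hr' P₀ Q₀ hdis e'
    exact of_injective e.symm.toMonoidHom e.symm.injective h1

theorem main [Finite S] (h2 : IsPGroup 2 S) (hr : Cfsg.SectionalPRankLE 2 4 S)
    (P S₀ : Subgroup S) (hPS : P ≤ S₀) (hP : ¬ IsMulCommutative ↥P) (hZP : Nat.card ↥(center ↥P) = 2)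
    (hPn : ∀ s ∈ S₀, ∀ a ∈ P, s * a * s⁻¹ ∈ P)
    (z : S) (hz : z ∈ P) (hz1 : z ≠ 1) (hzc : ∀ a ∈ P, z * a = a * z)
    (hzu : ∀ w ∈ P, (∀ a ∈ P, w * a = a * w) → w = 1 ∨ w = z)
    (hS₀ : ∀ s, s ∈ S₀ ↔ s * z = z * s) :
    S₀ = ⊤ ∨ (Cfsg.SectionalPRankLE 2 2 P ∧ S₀.index = 2) := by
  haveI : Fact (Nat.Prime 2) := ⟨Nat.prime_two⟩
  by_cases htop : S₀ = ⊤
  · exact Or.inl htop
  right
  haveI : Group.IsNilpotent S := h2.isNilpotent
  have hnc : NormalizerCondition S := Group.normalizerCondition_of_isNilpotent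
  obtain ⟨N, hN⟩ : ∃ N, N = normalizer (S₀ : Set S) := ⟨_, rfl⟩
  have hlt : S₀ < N := hN ▸ hnc S₀ (lt_top_iff_ne_top.2 htop)
  obtain ⟨hSN, x, hxN, hxS⟩ := SetLike.lt_iff_le_and_exists.1 hlt
  have hNconj : ∀ g ∈ N, ∀ s, s ∈ S₀ ↔ g * s * g⁻¹ ∈ S₀ := by
    intro g hg s
    rw [hN] at hg
    exact mem_set_normalizer_iff.1 hg s
  have hNconj' : ∀ g ∈ N, ∀ s, s ∈ S₀ ↔ g⁻¹ * s * g ∈ S₀ := by
    intro g hg s
    have := hNconj g⁻¹ (inv_mem hg) s
    rwa [inv_inv] at this
  have hne : ∀ g, g ∉ S₀ → ∀ _ : g * z * g⁻¹ ∈ P, ¬ ∀ a ∈ P, (g * z * g⁻¹) * a = a * (g * z * g⁻¹) := by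
    intro g hg h1 h3
    rcases hzu _ h1 h3 with h4 | h4
    · apply hz1
      calc z = g⁻¹ * (g * z * g⁻¹) * g := by group
        _ = 1 := by rw [h4]; group
    · apply hg
      rw [hS₀]
      calc g * z = (g * z * g⁻¹) * g := by group
        _ = z * g := by rw [h4]
  obtain ⟨F, hF⟩ := facts h2 hr P S₀ hPS hP hZP hPn x (hN ▸ hxN) z hz hzc (hne x hxS)
  refine ⟨hF, ?_⟩
  obtain ⟨z', hz'⟩ : ∃ z', z' = x * z * x⁻¹ := ⟨_, rfl⟩
  have hzS : z ∈ S₀ := hPS hz
  have hz'S : z' ∈ S₀ := by rw [hz']; exact (hNconj x hxN z).1 hzS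
  have hzz : z * z = 1 := by
    rcases hzu (z * z) (P.mul_mem hz hz) (fun a ha => by
      rw [mul_assoc, hzc a ha, ← mul_assoc, hzc a ha, mul_assoc]) with h | h
    · exact h
    · exact absurd (mul_eq_left.1 h) hz1
  have hz'z' : z' * z' = 1 := by
    rw [hz']
    calc x * z * x⁻¹ * (x * z * x⁻¹) = x * (z * z) * x⁻¹ := by group
      _ = 1 := by rw [hzz]; group
  have hz'1 : z' ≠ 1 := by
    intro h
    apply hz1
    calc z = x⁻¹ * z' * x := by rw [hz']; group
      _ = 1 := by rw [h]; group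
  have hcz : z' * z = z * z' := (hS₀ z').1 hz'S
  -- centralizers of the conjugates
  have hcg : ∀ g ∈ N, ∀ s, s ∈ S₀ ↔ s * (g * z * g⁻¹) = (g * z * g⁻¹) * s := by
    intro g hg s
    rw [hNconj' g hg s, hS₀]
    constructor
    · intro h
      calc s * (g * z * g⁻¹) = g * ((g⁻¹ * s * g) * z) * g⁻¹ := by group
        _ = g * (z * (g⁻¹ * s * g)) * g⁻¹ := by rw [h]
        _ = _ := by group
    · intro h
      calc (g⁻¹ * s * g) * z = g⁻¹ * (s * (g * z * g⁻¹)) * g := by group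
        _ = g⁻¹ * ((g * z * g⁻¹) * s) * g := by rw [h]
        _ = _ := by group
  have Z2 : ∀ s, s ∈ S₀ ↔ s * z' = z' * s := by
    intro s; rw [hz']; exact hcg x hxN s
  have Z3 : ∀ c ∈ S₀, (∀ a ∈ P, c * a = a * c) → (∀ a ∈ P, c * (x * a * x⁻¹) = (x * a * x⁻¹) * c) →
      c = 1 ∨ c = z ∨ c = z' ∨ c = z * z' := by
    intro c hc h1 h3
    obtain ⟨a, ha, b, hb, hab⟩ := F.cen c hc h1 h3
    have ha' := hzu a ha (fun t ht => by
      have h4 := h1 t ht
      have h5 := F.com t ht b hb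
      obtain ⟨q, hq⟩ : ∃ q, q = x * b * x⁻¹ := ⟨_, rfl⟩
      rw [← hq] at h5 hab
      rw [hab] at h4
      apply mul_right_cancel (b := q)
      calc a * t * q = a * (t * q) := by group
        _ = a * q * t := by rw [h5]; group
        _ = t * a * q := by rw [h4]; group)
    have hb' := hzu b hb (fun t ht => by
      have h4 := h3 t ht
      have h5 := F.com a ha t ht
      obtain ⟨q, hq⟩ : ∃ q, q = x * b * x⁻¹ := ⟨_, rfl⟩
      obtain ⟨r, hr'⟩ : ∃ r, r = x * t * x⁻¹ := ⟨_, rfl⟩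
      rw [← hr'] at h5 h4
      rw [← hq] at hab
      rw [hab] at h4
      have h6 : q * r = r * q := by
        apply mul_left_cancel (a := a)
        calc a * (q * r) = a * q * r := by group
          _ = r * (a * q) := h4
          _ = (r * a) * q := by group
          _ = (a * r) * q := by rw [h5]
          _ = a * (r * q) := by group
      calc b * t = x⁻¹ * (q * r) * x := by rw [hq, hr']; group
        _ = x⁻¹ * (r * q) * x := by rw [h6]
        _ = t * b := by rw [hq, hr']; group)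
    rcases ha' with rfl | rfl <;> rcases hb' with rfl | rfl
    · left; rw [hab]; group
    · right; right; left; rw [hab, hz']; group
    · right; left; rw [hab]; group
    · right; right; right; rw [hab, hz']
  have Z3' : ∀ c ∈ S₀, (∀ s ∈ S₀, c * s = s * c) → c = 1 ∨ c = z ∨ c = z' ∨ c = z * z' := by
    intro c hc h1
    exact Z3 c hc (fun a ha => h1 a (hPS ha)) (fun a ha => h1 _ ((hNconj x hxN a).1 (hPS ha)))
  have hcen : ∀ g ∈ N, ∀ c ∈ S₀, (∀ s ∈ S₀, c * s = s * c) → (∀ s ∈ S₀, (g * c * g⁻¹) * s = s * (g * c * g⁻¹)) := by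
    intro g hg c hc h1 s hs
    have h3 := h1 _ ((hNconj' g hg s).1 hs)
    calc (g * c * g⁻¹) * s = g * (c * (g⁻¹ * s * g)) * g⁻¹ := by group
      _ = g * ((g⁻¹ * s * g) * c) * g⁻¹ := by rw [h3]
      _ = _ := by group
  have hzS0 : ∀ s ∈ S₀, z * s = s * z := fun s hs => ((hS₀ s).1 hs).symm
  have hz'S0 : ∀ s ∈ S₀, z' * s = s * z' := fun s hs => ((Z2 s).1 hs).symm
  -- x swaps
  have Z4 : x * z' * x⁻¹ = z := by
    rcases Z3' _ ((hNconj x hxN z').1 hz'S) (hcen x hxN z' hz'S hz'S0) with h | h | h | h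
    · exfalso; apply hz'1
      calc z' = x⁻¹ * (x * z' * x⁻¹) * x := by group
        _ = 1 := by rw [h]; group
    · exact h
    · exfalso
      have h1 : z' = z := by
        calc z' = x⁻¹ * (x * z' * x⁻¹) * x := by group
          _ = x⁻¹ * (x * z * x⁻¹) * x := by rw [h, ← hz']
          _ = z := by group
      apply hxS
      rw [hS₀]
      calc x * z = (x * z * x⁻¹) * x := by group
        _ = z * x := by rw [← hz', h1]
    · exfalso
      have h1 : x ^ 3 ∈ S₀ := by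
        rw [hS₀]
        have h3 : x ^ 3 * z * (x ^ 3)⁻¹ = z := by
          calc x ^ 3 * z * (x ^ 3)⁻¹ = x * (x * (x * z * x⁻¹) * x⁻¹) * x⁻¹ := by
                rw [pow_succ, pow_two]; group
            _ = x * (z * z') * x⁻¹ := by rw [← hz', h]
            _ = (x * z * x⁻¹) * (x * z' * x⁻¹) := by group
            _ = z' * (z * z') := by rw [← hz', h]
            _ = z * (z' * z') := by rw [← mul_assoc, hcz, mul_assoc]
            _ = z := by rw [hz'z', mul_one]
        calc x ^ 3 * z = (x ^ 3 * z * (x ^ 3)⁻¹) * x ^ 3 := by group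
          _ = z * x ^ 3 := by rw [h3]
      apply hxS
      have h4 : x ∈ zpowers (x ^ 3) := by
        rw [mem_zpowers_pow_iff]
        obtain ⟨k, hk⟩ := h2 x
        have h5 : orderOf x ∣ 2 ^ k := orderOf_dvd_of_pow_eq_one hk
        exact Nat.Coprime.coprime_dvd_right h5 (Nat.Coprime.pow_right k (by norm_num))
      exact (zpowers_le.2 h1) h4
  obtain ⟨w, hw⟩ : ∃ w, w = z * z' := ⟨_, rfl⟩
  have hwx : x * w * x⁻¹ = w := by
    calc x * w * x⁻¹ = (x * z * x⁻¹) * (x * z' * x⁻¹) := by rw [hw]; group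
      _ = w := by rw [Z4, ← hz', hw, hcz]
  have hwS : w ∈ S₀ := by rw [hw]; exact mul_mem hzS hz'S
  have hw1 : w ≠ 1 := by
    intro h
    rw [hw] at h
    have h1 : z' = z := by
      calc z' = z * (z * z') := by rw [← mul_assoc, hzz, one_mul]
        _ = z := by rw [h, mul_one]
    apply hxS
    rw [hS₀]
    calc x * z = (x * z * x⁻¹) * x := by group
      _ = z * x := by rw [← hz', h1]
  -- N \ S₀ = x S₀
  have Z6' : ∀ g ∈ N, g ∉ S₀ → g * z * g⁻¹ = z' := by
    intro g hg hgS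
    rcases Z3' _ ((hNconj g hg z).1 hzS) (hcen g hg z hzS hzS0) with h | h | h | h
    · exfalso; apply hz1
      calc z = g⁻¹ * (g * z * g⁻¹) * g := by group
        _ = 1 := by rw [h]; group
    · exfalso; apply hgS
      rw [hS₀]
      calc g * z = (g * z * g⁻¹) * g := by group
        _ = z * g := by rw [h]
    · exact h
    · exfalso
      apply hxS
      rw [hcg g hg, h, ← hw]
      calc x * w = (x * w * x⁻¹) * x := by group
        _ = w * x := by rw [hwx]
  have Z6 : ∀ g ∈ N, g ∉ S₀ → x⁻¹ * g ∈ S₀ := by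
    intro g hg hgS
    rw [hS₀]
    have h1 := Z6' g hg hgS
    calc x⁻¹ * g * z = x⁻¹ * (g * z * g⁻¹) * g := by group
      _ = x⁻¹ * (x * z * x⁻¹) * g := by rw [h1, hz']
      _ = _ := by group
  have hNtop : N = ⊤ := by
    by_contra hNtop
    have hlt' := hnc N (lt_top_iff_ne_top.2 hNtop)
    obtain ⟨-, y, hyN, hyn⟩ := SetLike.lt_iff_le_and_exists.1 hlt'
    have hyc : ∀ n, n ∈ N ↔ y * n * y⁻¹ ∈ N := fun n => mem_set_normalizer_iff.1 hyN n
    have hyc' : ∀ n, n ∈ N ↔ y⁻¹ * n * y ∈ N := by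
      intro n
      have := mem_set_normalizer_iff.1 (inv_mem hyN) n
      rwa [inv_inv] at this
    obtain ⟨u, hu⟩ : ∃ u, u = y * z * y⁻¹ := ⟨_, rfl⟩
    obtain ⟨u', hu'⟩ : ∃ u', u' = y * z' * y⁻¹ := ⟨_, rfl⟩
    have huN : u ∈ N := by rw [hu]; exact (hyc z).1 (hSN hzS)
    have huu : u * u = 1 := by
      rw [hu]
      calc y * z * y⁻¹ * (y * z * y⁻¹) = y * (z * z) * y⁻¹ := by group
        _ = 1 := by rw [hzz]; group
    have z2 : ∀ n ∈ N, n * w = w * n := by
      intro n hn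
      have hwc : ∀ s ∈ S₀, s * w = w * s := by
        intro s hs
        rw [hw, ← mul_assoc, (hS₀ s).1 hs, mul_assoc, (Z2 s).1 hs, mul_assoc]
      by_cases hnS : n ∈ S₀
      · exact hwc n hnS
      · have h1 := hwc _ (Z6 n hn hnS)
        have h3 : x * w = w * x := by
          calc x * w = (x * w * x⁻¹) * x := by group
            _ = w * x := by rw [hwx]
        calc n * w = x * ((x⁻¹ * n) * w) := by group
          _ = x * (w * (x⁻¹ * n)) := by rw [h1]
          _ = (x * w) * (x⁻¹ * n) := by group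
          _ = w * n := by rw [h3]; group
    have z3 : ∀ c ∈ N, (∀ n ∈ N, n * c = c * n) → c = 1 ∨ c = w := by
      intro c hc h1
      have hcS : c ∈ S₀ := by rw [hS₀]; exact (h1 z (hSN hzS)).symm
      rcases Z3' c hcS (fun s hs => (h1 s (hSN hs)).symm) with h | h | h | h
      · exact Or.inl h
      · exfalso; apply hxS
        rw [hS₀, ← h]; exact h1 x hxN
      · exfalso; apply hxS
        rw [Z2, ← h]; exact h1 x hxN
      · right; rw [h, hw]
    have z4 : y * w * y⁻¹ = w := by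
      rcases z3 (y * w * y⁻¹) ((hyc w).1 (hSN hwS)) (fun n hn => by
        have h1 := z2 _ ((hyc' n).1 hn)
        calc n * (y * w * y⁻¹) = y * ((y⁻¹ * n * y) * w) * y⁻¹ := by group
          _ = y * (w * (y⁻¹ * n * y)) * y⁻¹ := by rw [h1]
          _ = _ := by group) with h | h
      · exfalso; apply hw1
        calc w = y⁻¹ * (y * w * y⁻¹) * y := by group
          _ = 1 := by rw [h]; group
      · exact h
    have huu' : u * u' = w := by
      rw [← z4, hw, hu, hu']; group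
    have hu'w : u' * u⁻¹ = w := by
      have h1 : u⁻¹ = u := by rw [inv_eq_iff_mul_eq_one]; exact huu
      have h3 : u' * u = u * u' := by
        rw [hu, hu']
        calc y * z' * y⁻¹ * (y * z * y⁻¹) = y * (z' * z) * y⁻¹ := by group
          _ = y * (z * z') * y⁻¹ := by rw [hcz]
          _ = _ := by group
      rw [h1, h3, huu']
    have z5 : ∀ n ∈ N, n * u * n⁻¹ = u ∨ n * u * n⁻¹ = u' := by
      intro n hn
      have h1 := (hyc' n).1 hn
      by_cases h3 : y⁻¹ * n * y ∈ S₀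
      · left
        have h4 := (hS₀ _).1 h3
        calc n * u * n⁻¹ = y * ((y⁻¹ * n * y) * z) * (y⁻¹ * n * y)⁻¹ * y⁻¹ := by rw [hu]; group
          _ = y * (z * (y⁻¹ * n * y)) * (y⁻¹ * n * y)⁻¹ * y⁻¹ := by rw [h4]
          _ = u := by rw [hu]; group
      · right
        have h4 := Z6' _ h1 h3
        calc n * u * n⁻¹ = y * ((y⁻¹ * n * y) * z * (y⁻¹ * n * y)⁻¹) * y⁻¹ := by rw [hu]; group
          _ = u' := by rw [h4, hu']
    have hwP : w ∉ P := by
      intro h
      have h1 : z' ∈ P := by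
        have : z' = z * w := by rw [hw, ← mul_assoc, hzz, one_mul]
        rw [this]; exact P.mul_mem hz h
      apply hz'1
      apply F.dis z' h1
      have : x⁻¹ * z' * x = z := by rw [hz']; group
      rw [this]; exact hz
    by_cases huS : u ∈ S₀
    · have c1 : ∀ a ∈ P, u * a = a * u := by
        intro a ha
        rcases z5 a (hSN (hPS ha)) with h | h
        · calc u * a = (a * u * a⁻¹) * a := by rw [h]
            _ = a * u := by group
        · exfalso
          apply hwP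
          rw [← hu'w, ← h]
          have e1 : a * u * a⁻¹ * u⁻¹ = a * (u * a⁻¹ * u⁻¹) := by group
          rw [e1]
          exact P.mul_mem ha (hPn u huS _ (P.inv_mem ha))
      have c2 : ∀ a ∈ P, u * (x * a * x⁻¹) = (x * a * x⁻¹) * u := by
        intro a ha
        obtain ⟨b, hb⟩ : ∃ b, b = x * a * x⁻¹ := ⟨_, rfl⟩
        have hbS : b ∈ S₀ := by rw [hb]; exact (hNconj x hxN a).1 (hPS ha)
        rw [← hb]
        rcases z5 b (hSN hbS) with h | h
        · calc u * b = (b * u * b⁻¹) * b := by rw [h]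
            _ = b * u := by group
        · exfalso
          apply hwP
          have h3 : x⁻¹ * w * x ∈ P := by
            rw [← hu'w, ← h, hb]
            have h4 : x⁻¹ * u * x ∈ S₀ := (hNconj' x hxN u).1 huS
            have e1 : x⁻¹ * (x * a * x⁻¹ * u * (x * a * x⁻¹)⁻¹ * u⁻¹) * x =
                a * ((x⁻¹ * u * x) * a⁻¹ * (x⁻¹ * u * x)⁻¹) := by group
            rw [e1]
            exact P.mul_mem ha (hPn _ h4 _ (P.inv_mem ha))
          have h5 : x⁻¹ * w * x = w := by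
            calc x⁻¹ * w * x = x⁻¹ * (x * w * x⁻¹) * x := by rw [hwx]
              _ = w := by group
          rwa [h5] at h3
      rcases Z3 u huS c1 c2 with h | h | h | h
      · apply hz1
        calc z = y⁻¹ * (y * z * y⁻¹) * y := by group
          _ = 1 := by rw [← hu, h]; group
      · apply hyn
        apply hSN
        rw [hS₀]
        calc y * z = (y * z * y⁻¹) * y := by group
          _ = z * y := by rw [← hu, h]
      · apply hyn
        have h1 : x⁻¹ * y ∈ S₀ := by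
          rw [hS₀]
          calc x⁻¹ * y * z = x⁻¹ * (y * z * y⁻¹) * y := by group
            _ = x⁻¹ * (x * z * x⁻¹) * y := by rw [← hu, h, hz']
            _ = _ := by group
        have h3 := N.mul_mem hxN (hSN h1)
        rwa [mul_inv_cancel_left] at h3
      · apply hz'1
        have h1 : z = w := by
          calc z = y⁻¹ * (y * z * y⁻¹) * y := by group
            _ = y⁻¹ * (y * w * y⁻¹) * y := by rw [← hu, h, z4, hw]
            _ = w := by group
        rw [hw] at h1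
        exact (mul_eq_left.1 h1.symm)
    · -- case B
      apply hP
      have hs := Z6 u huN huS
      have key : ∀ a ∈ P, a = 1 ∨ a = z := by
        intro a ha
        have hq : x⁻¹ * (u * a⁻¹ * u⁻¹) * x ∈ P := by
          have e1 : x⁻¹ * (u * a⁻¹ * u⁻¹) * x = (x⁻¹ * u) * a⁻¹ * (x⁻¹ * u)⁻¹ := by group
          rw [e1]
          exact hPn _ hs _ (P.inv_mem ha)
        rcases z5 a (hSN (hPS ha)) with h | h
        · left
          apply F.dis a ha
          have h3 : u * a * u⁻¹ = a := by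
            have h4 : a * u = u * a := by
              calc a * u = (a * u * a⁻¹) * a := by group
                _ = u * a := by rw [h]
            rw [← h4]; group
          have h4 : x⁻¹ * a * x = (x⁻¹ * (u * a⁻¹ * u⁻¹) * x)⁻¹ := by
            calc x⁻¹ * a * x = x⁻¹ * (u * a * u⁻¹) * x := by rw [h3]
              _ = _ := by group
          rw [h4]
          exact P.inv_mem hq
        · right
          -- a * (u a⁻¹ u⁻¹) = w
          have h3 : a * (u * a⁻¹ * u⁻¹) = z * z' := by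
            calc a * (u * a⁻¹ * u⁻¹) = (a * u * a⁻¹) * u⁻¹ := by group
              _ = w := by rw [h, hu'w]
              _ = z * z' := hw
          have h4 : z⁻¹ * a = z' * (u * a⁻¹ * u⁻¹)⁻¹ := by
            calc z⁻¹ * a = z⁻¹ * (a * (u * a⁻¹ * u⁻¹)) * (u * a⁻¹ * u⁻¹)⁻¹ := by group
              _ = _ := by rw [h3]; group
          have h5 : z⁻¹ * a = 1 := by
            apply F.dis _ (P.mul_mem (P.inv_mem hz) ha)
            rw [h4]
            have e1 : x⁻¹ * (z' * (u * a⁻¹ * u⁻¹)⁻¹) * x = z * (x⁻¹ * (u * a⁻¹ * u⁻¹) * x)⁻¹ := by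
              rw [hz']; group
            rw [e1]
            exact P.mul_mem hz (P.inv_mem hq)
          exact (inv_mul_eq_one.1 h5).symm
      refine ⟨⟨?_⟩⟩
      rintro ⟨a, ha⟩ ⟨b, hb⟩
      apply Subtype.ext
      show a * b = b * a
      rcases key a ha with rfl | rfl
      · group
      · exact hzc b hb
  rw [index_eq_two_iff]
  refine ⟨x, fun b => ?_⟩
  by_cases hb : b ∈ S₀
  · right
    refine ⟨hb, fun h => hxS ?_⟩
    have := S₀.mul_mem (S₀.inv_mem hb) h
    rwa [inv_mul_cancel_left] at this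
  · left
    refine ⟨?_, hb⟩
    have h1 : b⁻¹ ∉ S₀ := fun h => hb (by simpa using S₀.inv_mem h)
    have h3 := Z6 b⁻¹ (by rw [hNtop]; trivial) h1
    have h4 := S₀.inv_mem h3
    have e1 : (x⁻¹ * b⁻¹)⁻¹ = b * x := by group
    rwa [e1] at h4

end Cfsg.Agent.H24.SRank
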