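import Mathlib
import Cfsg.Agent.H24_SqFree2
import Cfsg.Agent.H2_PGroup

/-! Groups all of whose class sizes are square-free: the order of the commutator subgroup at a prime. -/

set_option autoImplicit false

open Subgroup Cfsg
open scoped Pointwise commutatorElement

namespace Cfsg.Agent.H24.SqFree

variable {G : Type*} [Group G]

/-- `g ↦ ⁅x, g⁆` for central commutators -/
def cz (hc : commutator G ≤ center G) (x : G) : G →* G where
  toFun g := ⁅x, g⁆
  map_one' := by simp
  map_mul' g k := by
    have h1 : ⁅x, k⁆ ∈ center G := hc (commutator_mem_commutator (mem_top _) (mem_top _))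
    have h2 := mem_center_iff.1 h1 g
    calc ⁅x, g * k⁆ = ⁅x, g⁆ * (g * ⁅x, k⁆ * g⁻¹) := by simp only [commutatorElement_def]; group
      _ = ⁅x, g⁆ * ⁅x, k⁆ := by rw [h2]; group

theorem cz_mul (hc : commutator G ≤ center G) (x y g : G) : cz hc (x * y) g = cz hc x g * cz hc y g := by
  have h1 : ⁅y, g⁆ ∈ center G := hc (commutator_mem_commutator (mem_top _) (mem_top _))
  have h2 := mem_center_iff.1 h1 x
  show ⁅x * y, g⁆ = ⁅x, g⁆ * ⁅y, g⁆
  calc ⁅x * y, g⁆ = (x * ⁅y, g⁆ * x⁻¹) * ⁅x, g⁆ := by simp only [commutatorElement_def]; group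
    _ = ⁅y, g⁆ * ⁅x, g⁆ := by rw [h2]; group
    _ = ⁅x, g⁆ * ⁅y, g⁆ := (mem_center_iff.1 h1 _).symm

/-- a `p`-group of breadth at most one has a commutator subgroup of order at most `p` -/
theorem breadth_one [Finite G] {p : ℕ} [hp : Fact p.Prime] (hG : IsPGroup p G)
    (h : ∀ x : G, (centralizer ({x} : Set G)).index ∣ p) : Nat.card (commutator G) ∣ p := by
  have hc : commutator G ≤ center G := by
    intro c hcm
    rw [mem_center_iff]
    intro x
    have h1 : commutator G ≤ centralizer ({x} : Set G) := by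
      rcases (Nat.dvd_prime hp.out).1 (h x) with h2 | h2
      · rw [index_eq_one.1 h2]; exact le_top
      · exact H2.PGroup.commutator_le_coatom hG (H2.PGroup.isCoatom_of_index h2)
    exact (mem_centralizer_singleton_iff.1 (h1 hcm)).symm
  have hker : ∀ x, (cz hc x).ker = centralizer ({x} : Set G) := by
    intro x
    ext g
    rw [MonoidHom.mem_ker, mem_centralizer_singleton_iff]
    show ⁅x, g⁆ = 1 ↔ _
    rw [commutatorElement_eq_one_iff_mul_comm]
    exact eq_comm
  have hcr : ∀ x, Nat.card (cz hc x).range ∣ p := by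
    intro x
    rw [← index_ker, hker]; exact h x
  by_cases hall : ∀ x, (cz hc x).range = ⊥
  · have : commutator G = ⊥ := by
      rw [eq_bot_iff, _root_.commutator_def, commutator_le]
      intro x _ y _
      have h1 : cz hc x y ∈ (cz hc x).range := ⟨y, rfl⟩
      rw [hall x] at h1
      exact h1
    rw [this, card_bot]
    exact one_dvd p
  · push Not at hall
    obtain ⟨x₀, hx₀⟩ := hall
    have hpair : ∀ x y, (cz hc x).range ≠ ⊥ → (cz hc y).range ≠ ⊥ → (cz hc x).range = (cz hc y).range := by
      intro x y hx hy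
      by_contra hne
      have hrp : ∀ x, (cz hc x).range ≠ ⊥ → Nat.card (cz hc x).range = p := by
        intro x hx
        rcases (Nat.dvd_prime hp.out).1 (hcr x) with h1 | h1
        · exact absurd (card_eq_one.1 h1) hx
        · exact h1
      by_cases hk : (cz hc x).ker = (cz hc y).ker
      · have hkt : (cz hc x).ker ≠ ⊤ := by
          intro h1
          apply hx
          rw [eq_bot_iff]
          rintro _ ⟨g, rfl⟩
          have : g ∈ (cz hc x).ker := by rw [h1]; trivial
          exact this
        obtain ⟨w, hw⟩ : ∃ w, w ∉ (cz hc x).ker := by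
          by_contra hcon
          push Not at hcon
          exact hkt ((eq_top_iff' _).2 hcon)
        have hwx : ∀ u, w ∉ (cz hc u).ker → (cz hc w).range = (cz hc u).range := by
          intro u hu
          apply eq_of_prime_card hp.out (hcr _) (hcr _) (a := ⁅u, w⁆)
          · have h1 : cz hc w u ∈ (cz hc w).range := ⟨u, rfl⟩
            have h2 : ⁅u, w⁆ = (cz hc w u)⁻¹ := (commutatorElement_inv w u).symm
            rw [h2]; exact inv_mem h1
          · exact ⟨w, rfl⟩
          · exact fun h1 => hu (MonoidHom.mem_ker.2 h1)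
        exact hne ((hwx x hw).symm.trans (hwx y (by rw [← hk]; exact hw)))
      · have hnle : ∀ u v, (cz hc u).range ≠ ⊥ → (cz hc v).range ≠ ⊥ → (cz hc u).ker ≠ (cz hc v).ker →
            ∃ m, m ∈ (cz hc u).ker ∧ m ∉ (cz hc v).ker := by
          intro u v hu hv huv
          by_contra hcon
          push Not at hcon
          apply huv
          apply eq_of_le_of_card_ge hcon
          have e1 := (cz hc u).ker.card_mul_index
          have e2 := (cz hc v).ker.card_mul_index
          rw [index_ker, hrp u hu] at e1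
          rw [index_ker, hrp v hv, ← e1] at e2
          exact (Nat.eq_of_mul_eq_mul_right hp.out.pos e2).le
        obtain ⟨m, hm1, hm2⟩ := hnle y x hy hx (Ne.symm hk)
        obtain ⟨n, hn1, hn2⟩ := hnle x y hx hy hk
        apply hne
        have e1 : (cz hc (x * y)).range = (cz hc x).range := by
          apply eq_of_prime_card hp.out (hcr _) (hcr _) (a := cz hc x m)
          · refine ⟨m, ?_⟩
            rw [cz_mul, MonoidHom.mem_ker.1 hm1, mul_one]
          · exact ⟨m, rfl⟩
          · exact fun h1 => hm2 (MonoidHom.mem_ker.2 h1)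
        have e2 : (cz hc (x * y)).range = (cz hc y).range := by
          apply eq_of_prime_card hp.out (hcr _) (hcr _) (a := cz hc y n)
          · refine ⟨n, ?_⟩
            rw [cz_mul, MonoidHom.mem_ker.1 hn1, one_mul]
          · exact ⟨n, rfl⟩
          · exact fun h1 => hn2 (MonoidHom.mem_ker.2 h1)
        rw [← e1, e2]
    have hle : commutator G ≤ (cz hc x₀).range := by
      rw [_root_.commutator_def, commutator_le]
      intro x _ y _
      have h1 : cz hc x y ∈ (cz hc x).range := ⟨y, rfl⟩
      by_cases hx : (cz hc x).range = ⊥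
      · rw [hx, mem_bot] at h1
        have : ⁅x, y⁆ = 1 := h1
        rw [this]; exact one_mem _
      · rw [hpair x x₀ hx hx₀] at h1
        exact h1
    exact (card_dvd_of_le hle).trans (hcr x₀)

/-- an element acting on a `p`-group with `⁅g, h⁆` fixed centralizes `g`. -/
theorem fix_step {g h s : G} (hs : h * g * h⁻¹ = g * s) (hsh : h * s = s * h) (k : ℕ) :
    h ^ k * g * (h ^ k)⁻¹ = g * s ^ k := by
  induction k with
  | zero => simp
  | succ k ih =>
    have h1 : h * s ^ k * h⁻¹ = s ^ k := by
      have : Commute h (s ^ k) := (show Commute h s from hsh).pow_right k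
      rw [this.eq]; group
    calc h ^ (k + 1) * g * (h ^ (k + 1))⁻¹ = h * (h ^ k * g * (h ^ k)⁻¹) * h⁻¹ := by rw [pow_succ']; group
      _ = (h * g * h⁻¹) * (h * s ^ k * h⁻¹) := by rw [ih]; group
      _ = g * s ^ (k + 1) := by rw [hs, h1, mul_assoc, ← pow_succ']

theorem eq_one_of_pow {s : G} {p j n : ℕ} (hp : p.Prime) (h1 : s ^ p ^ j = 1) (h2 : s ^ n = 1) (hn : ¬ p ∣ n) : s = 1 := by
  have h3 : orderOf s ∣ Nat.gcd (p ^ j) n := Nat.dvd_gcd (orderOf_dvd_of_pow_eq_one h1) (orderOf_dvd_of_pow_eq_one h2)
  have h4 : Nat.gcd (p ^ j) n = 1 := Nat.Coprime.pow_left j ((Nat.Prime.coprime_iff_not_dvd hp).2 hn)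
  rw [h4, Nat.dvd_one] at h3
  exact orderOf_eq_one_iff.1 h3

/-- a normal Sylow subgroup is abelian if it is proper -/
theorem comm_of_ne_top [Finite G] {p : ℕ} [hp : Fact p.Prime] (P : Subgroup G) [hPn : P.Normal] (hP : IsPGroup p P)
    (hidx : ¬ p ∣ P.index) (hC : centralizer (P : Set G) ≤ P) (hne : P ≠ ⊤)
    (h : ∀ x : G, (centralizer ({x} : Set G)).relIndex P ∣ p) : ∀ a ∈ P, ∀ b ∈ P, a * b = b * a := by
  have hi1 : P.index ≠ 1 := fun h1 => hne (index_eq_one.1 h1)
  obtain ⟨q, hq, hqd⟩ := Nat.exists_prime_and_dvd hi1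
  haveI : Fact q.Prime := ⟨hq⟩
  have hqp : q ≠ p := by rintro rfl; exact hidx hqd
  obtain ⟨x, hx⟩ := exists_prime_orderOf_dvd_card' (G := G) q (hqd.trans (index_dvd_card P))
  have hppow : ∀ a ∈ P, ∃ j, a ^ p ^ j = 1 := by
    intro a ha
    obtain ⟨j, hj⟩ := hP ⟨a, ha⟩
    exact ⟨j, congrArg Subtype.val hj⟩
  have hpq : ¬ p ∣ q := fun h1 => hqp ((Nat.prime_dvd_prime_iff_eq hp.out hq).1 h1).symm
  have hxq : x ^ q = 1 := by rw [← hx]; exact pow_orderOf_eq_one x
  have hx1 : x ≠ 1 := by
    rintro rfl
    rw [orderOf_one] at hx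
    exact hq.one_lt.ne hx
  have hxP : x ∉ P := by
    intro h1
    obtain ⟨j, hj⟩ := hppow x h1
    exact hx1 (eq_one_of_pow hp.out hj hxq hpq)
  set C : Subgroup P := (centralizer ({x} : Set G)).subgroupOf P with hCdef
  have hCi : C.index = p := by
    rcases (Nat.dvd_prime hp.out).1 (h x) with h1 | h1
    · exfalso
      rw [relIndex_eq_one] at h1
      apply hxP
      apply hC
      rw [mem_centralizer_iff]
      intro y hy
      exact mem_centralizer_singleton_iff.1 (h1 hy)
    · exact h1
  have hCn : C.Normal := H2.PGroup.normal_of_index_p hP hCi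
  have hCmem : ∀ c : P, c ∈ C ↔ (c : G) * x = x * c := fun c => by
    rw [hCdef, mem_subgroupOf, mem_centralizer_singleton_iff]
  -- C is abelian
  have hCab : ∀ c ∈ C, ∀ d ∈ C, c * d = d * c := by
    intro c hc d hd
    have hcx := (hCmem c).1 hc
    have hdx := (hCmem d).1 hd
    set D : Subgroup P := (centralizer ({x * (c : G)} : Set G)).subgroupOf P with hD
    have hDi : D.index ∣ p := h (x * c)
    obtain ⟨j, hj⟩ := hppow c c.2
    have hcomm : Commute x (c : G) := (show Commute (c : G) x from hcx).symm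
    have hDC : D ≤ C := by
      intro e he
      rw [hD, mem_subgroupOf, mem_centralizer_singleton_iff] at he
      rw [hCmem]
      have h1 : Commute (e : G) (x * c) := he
      have h2 : Commute (e : G) ((x * c) ^ p ^ j) := h1.pow_right _
      rw [hcomm.mul_pow, hj, mul_one] at h2
      -- x is a power of x ^ p ^ j
      have h3 : Nat.Coprime (orderOf x) (p ^ j) := by
        rw [hx]
        exact Nat.Coprime.pow_right j ((Nat.coprime_primes hq hp.out).2 hqp)
      obtain ⟨m, hm⟩ := exists_pow_eq_self_of_coprime h3.symm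
      have h4 := h2.pow_right m
      rw [hm] at h4
      exact h4
    have hDeq : D = C := by
      apply le_antisymm hDC
      rcases (Nat.dvd_prime hp.out).1 hDi with h1 | h1
      · rw [index_eq_one.1 h1]; exact le_top
      · have h2 : Nat.card D = Nat.card C := by
          have e1 := D.card_mul_index
          have e2 := C.card_mul_index
          rw [h1] at e1
          rw [hCi, ← e1] at e2
          exact (Nat.eq_of_mul_eq_mul_right hp.out.pos e2).symm
        exact (eq_of_le_of_card_ge hDC h2.ge).ge
    have h5 : d ∈ D := by rw [hDeq]; exact hd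
    rw [hD, mem_subgroupOf, mem_centralizer_singleton_iff] at h5
    apply Subtype.ext
    rw [coe_mul, coe_mul]
    have h6 : (d : G) * (x * c) = x * (d * c) := by rw [← mul_assoc, hdx, mul_assoc]
    rw [h6, mul_assoc] at h5
    exact (mul_left_cancel h5).symm
  -- an element outside of C centralizing C
  obtain ⟨g, hg⟩ : ∃ g : P, g ∉ C := by
    by_contra hcon
    push Not at hcon
    have : C = ⊤ := (eq_top_iff' _).2 hcon
    rw [this, index_top] at hCi
    exact hp.out.one_lt.ne hCi
  have hsP : (g : G)⁻¹ * (x * g * x⁻¹) ∈ P := mul_mem (inv_mem g.2) (hPn.conj_mem _ g.2 x)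
  obtain ⟨s, hs⟩ : ∃ s : P, (s : G) = (g : G)⁻¹ * (x * g * x⁻¹) := ⟨⟨_, hsP⟩, rfl⟩
  have hsg : x * (g : G) * x⁻¹ = g * (s : G) := by rw [hs]; group
  have hsC : s ∉ C := by
    intro h1
    have h2 := (hCmem s).1 h1
    have h3 := fix_step hsg h2.symm q
    rw [hxq] at h3
    have h4 : (s : G) ^ q = 1 := by
      have : (g : G) * (s : G) ^ q = g := by rw [← h3]; simp
      exact mul_eq_left.1 this
    obtain ⟨j, hj⟩ := hppow s s.2
    have h5 := eq_one_of_pow hp.out hj h4 hpq
    apply hg
    rw [hCmem]
    rw [h5, mul_one] at hsg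
    calc (g : G) * x = (x * g * x⁻¹) * x := by rw [hsg]
      _ = x * g := by group
  have hsc : ∀ c ∈ C, c * s = s * c := by
    intro c hc
    -- c = g c' g⁻¹
    have hd := hCn.conj_mem c hc g
    set d : P := g * c * g⁻¹ with hddef
    have hcx := (hCmem c).1 hc
    have hdx := (hCmem d).1 hd
    have e1 : (d : G) * g = g * c := by rw [hddef]; push_cast; group
    have e2 : x * ((d : G) * g) * x⁻¹ = d * (g * s) := by
      calc x * ((d : G) * g) * x⁻¹ = (x * d) * (g * x⁻¹) := by group
        _ = (d * x) * (g * x⁻¹) := by rw [hdx]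
        _ = d * (x * g * x⁻¹) := by group
        _ = d * (g * s) := by rw [hsg]
    have e3 : x * ((g : G) * c) * x⁻¹ = (g * s) * c := by
      calc x * ((g : G) * c) * x⁻¹ = (x * g * x⁻¹) * (x * c * x⁻¹) := by group
        _ = (g * s) * (c * x * x⁻¹) := by rw [hsg, hcx]
        _ = (g * s) * c := by group
    have e4 : (g : G) * ((s : G) * c) = g * (c * s) := by
      calc (g : G) * ((s : G) * c) = (g * s) * c := by rw [mul_assoc]
        _ = x * ((g : G) * c) * x⁻¹ := e3.symm
        _ = x * ((d : G) * g) * x⁻¹ := by rw [e1]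
        _ = d * (g * s) := e2
        _ = (d * g) * s := by rw [mul_assoc]
        _ = (g * c) * s := by rw [e1]
        _ = g * (c * s) := by rw [mul_assoc]
    apply Subtype.ext
    rw [coe_mul, coe_mul]
    exact (mul_left_cancel e4).symm
  have hCcen : C ≤ center P := by
    have h1 : IsCoatom C := H2.PGroup.isCoatom_of_index hCi
    intro c hc
    rw [mem_center_iff]
    set Z := centralizer (C : Set P) with hZ
    have h2 : Z = ⊤ := by
      apply h1.2
      refine lt_of_le_of_ne ?_ ?_
      · intro d hd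
        rw [hZ, mem_centralizer_iff]
        intro e he
        exact hCab e he d hd
      · intro h3
        apply hsC
        rw [h3, hZ, mem_centralizer_iff]
        exact fun e he => hsc e he
    intro e
    have : e ∈ Z := by rw [h2]; trivial
    exact ((mem_centralizer_iff.1 this) c hc).symm
  have hcyc : IsCyclic (P ⧸ C) := isCyclic_of_prime_card (p := p) hCi
  intro a ha b hb
  have h1 := commutative_of_cyclic_center_quotient (QuotientGroup.mk' C) (by rw [QuotientGroup.ker_mk']; exact hCcen) ⟨a, ha⟩ ⟨b, hb⟩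
  exact congrArg Subtype.val h1

/-- the commutator subgroup has order at most `p` -/
theorem p_part [Finite G] {p : ℕ} [hp : Fact p.Prime] (P : Subgroup G) [hPn : P.Normal] (hP : IsPGroup p P)
    (hidx : ¬ p ∣ P.index) (hcm : commutator G ≤ P) (hC : centralizer (P : Set G) ≤ P)
    (h : ∀ x : G, (centralizer ({x} : Set G)).relIndex P ∣ p) : Nat.card (commutator G) ∣ p := by
  by_cases hne : P = ⊤
  · subst hne
    refine breadth_one ?_ (fun x => ?_)
    · intro x
      obtain ⟨j, hj⟩ := hP ⟨x, mem_top x⟩
      exact ⟨j, congrArg Subtype.val hj⟩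
    · have := h x
      rwa [relIndex_top_right] at this
  · have hab := comm_of_ne_top P hP hidx hC hne h
    have hcr : ∀ x, Nat.card (cm P hab x).range ∣ p := fun x => by rw [card_range]; exact h x
    have hppow : ∀ a ∈ P, ∃ j, a ^ p ^ j = 1 := by
      intro a ha
      obtain ⟨j, hj⟩ := hP ⟨a, ha⟩
      exact ⟨j, congrArg Subtype.val hj⟩
    have hrmul : ∀ u ∈ P, ∀ x, (cm P hab (u * x)).range = (cm P hab x).range := by
      intro u hu x
      have : cm P hab (u * x) = cm P hab x := by
        ext m
        rw [cm_apply, cm_apply]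
        congr 1
        have h1 : x * (m : G) * x⁻¹ ∈ P := hPn.conj_mem _ m.2 x
        calc u * x * (m : G) * (u * x)⁻¹ = u * (x * m * x⁻¹) * u⁻¹ := by group
          _ = (x * m * x⁻¹) * u * u⁻¹ := by rw [hab u hu _ h1]
          _ = x * m * x⁻¹ := by group
      rw [this]
    have hrn : ∀ x, ((cm P hab x).range).Normal := by
      intro x
      constructor
      intro y hy g
      have h1 := conj_range P hab g x hy
      have h2 : g * x * g⁻¹ = ⁅g, x⁆ * x := by rw [commutatorElement_def]; group
      rw [h2, hrmul _ (hcm (commutator_mem_commutator (mem_top _) (mem_top _)))] at h1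
      exact h1
    -- nontrivial action on the range
    have hact : ∀ x, (cm P hab x).range ≠ ⊥ → ∃ l : P, (l : G) ∈ (cm P hab x).range ∧ cm P hab x l ≠ 1 := by
      intro x hx
      by_contra hcon
      push Not at hcon
      apply hx
      rw [range_eq_bot_iff]
      intro m hm
      set s := cm P hab x ⟨m, hm⟩ with hs
      have hsr : s ∈ (cm P hab x).range := ⟨_, rfl⟩
      have hsP : s ∈ P := range_le P hab x hsr
      have h1 : x * m * x⁻¹ = m * s := by rw [hs, cm_apply]; group
      have h2 := hcon ⟨s, hsP⟩ hsr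
      have h3 : x * s * x⁻¹ = s := (mem_ker P hab (m := ⟨s, hsP⟩)).1 (MonoidHom.mem_ker.2 h2)
      have h4 : x * s = s * x := by
        calc x * s = (x * s * x⁻¹) * x := by group
          _ = s * x := by rw [h3]
      have h5 := fix_step h1 h4 P.index
      have h6 : x ^ P.index ∈ P := pow_index_mem P x
      rw [hab _ h6 m hm] at h5
      have h7 : s ^ P.index = 1 := by
        have : m * s ^ P.index = m := by rw [← h5]; group
        exact mul_eq_left.1 this
      obtain ⟨j, hj⟩ := hppow s hsP
      rw [h1, eq_one_of_pow hp.out hj h7 hidx, mul_one]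
    have hpair : ∀ x y, (cm P hab x).range ≠ ⊥ → (cm P hab y).range ≠ ⊥ → (cm P hab x).range = (cm P hab y).range := by
      intro x y hx hy
      by_contra hcon
      have hdisj : ∀ a, a ∈ (cm P hab x).range → a ∈ (cm P hab y).range → a = 1 := by
        intro a ha hb
        by_contra h1
        exact hcon (eq_of_prime_card hp.out (hcr _) (hcr _) ha hb h1)
      have hfix : ∀ u v, (∀ a, a ∈ (cm P hab u).range → a ∈ (cm P hab v).range → a = 1) →
          ∀ l : P, (l : G) ∈ (cm P hab u).range → l ∈ (cm P hab v).ker := by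
        intro u v huv l hl
        rw [MonoidHom.mem_ker]
        apply huv
        · rw [cm_apply]
          exact mul_mem (inv_mem hl) ((hrn u).conj_mem _ hl v)
        · exact ⟨l, rfl⟩
      have e1 : (cm P hab (x * y)).range = (cm P hab x).range := by
        obtain ⟨l, hl, hl1⟩ := hact x hx
        apply eq_of_prime_card hp.out (hcr _) (hcr _) (a := cm P hab x l)
        · exact ⟨l, cm_mul_left P hab (hfix x y hdisj l hl)⟩
        · exact ⟨l, rfl⟩
        · exact hl1
      have e2 : (cm P hab (x * y)).range = (cm P hab y).range := by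
        obtain ⟨l, hl, hl1⟩ := hact y hy
        apply eq_of_prime_card hp.out (hcr _) (hcr _) (a := cm P hab y l)
        · refine ⟨l, cm_mul_right P hab ?_⟩
          have h1 : y * (l : G) * y⁻¹ ∈ (cm P hab y).range := (hrn y).conj_mem _ hl y
          exact (mem_ker P hab (m := ⟨_, range_le P hab y h1⟩)).1
            (hfix y x (fun a ha hb => hdisj a hb ha) ⟨_, range_le P hab y h1⟩ h1)
        · exact ⟨l, rfl⟩
        · exact hl1
      exact hcon (e1.symm.trans e2)
    obtain ⟨L, hLn, hLc, hL⟩ : ∃ L : Subgroup G, L.Normal ∧ Nat.card L ∣ p ∧ ∀ x, (cm P hab x).range ≤ L := by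
      by_cases hall : ∀ x, (cm P hab x).range = ⊥
      · exact ⟨⊥, inferInstance, by rw [card_bot]; exact one_dvd p, fun x => (hall x).le⟩
      · push Not at hall
        obtain ⟨x₀, hx₀⟩ := hall
        refine ⟨(cm P hab x₀).range, hrn x₀, hcr x₀, fun x => ?_⟩
        by_cases hx : (cm P hab x).range = ⊥
        · rw [hx]; exact bot_le
        · exact (hpair x x₀ hx hx₀).le
    refine (card_dvd_of_le ?_).trans hLc
    rw [_root_.commutator_def, commutator_le]
    intro x _ y _
    have hcP : ⁅x, y⁆ ∈ P := hcm (commutator_mem_commutator (mem_top _) (mem_top _))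
    set π := QuotientGroup.mk' L with hπ
    have hcen : ∀ a ∈ P, ∀ g : G, π g * π a = π a * π g := by
      intro a ha g
      have h1 : (a : G)⁻¹ * (g * a * g⁻¹) ∈ L := hL g ⟨⟨a, ha⟩, rfl⟩
      have h2 : π (a⁻¹ * (g * a * g⁻¹)) = 1 := (QuotientGroup.eq_one_iff _).2 h1
      rw [map_mul, map_mul, map_mul, map_inv, map_inv, inv_mul_eq_one] at h2
      calc π g * π a = (π g * π a * (π g)⁻¹) * π g := by group
        _ = π a * π g := by rw [← h2]
    have hkey : ∀ k : ℕ, π x ^ k * π y = π ⁅x, y⁆ ^ k * π y * π x ^ k := by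
      intro k
      induction k with
      | zero => simp
      | succ k ih =>
        have h1 : π x * π y = π ⁅x, y⁆ * π y * π x := by
          rw [← map_mul, ← map_mul, ← map_mul]
          congr 1
          rw [commutatorElement_def]; group
        have h2 : Commute (π x) (π ⁅x, y⁆ ^ k) := (show Commute (π x) (π ⁅x, y⁆) from hcen _ hcP x).pow_right k
        calc π x ^ (k + 1) * π y = π x * (π x ^ k * π y) := by rw [pow_succ']; group
          _ = (π x * π ⁅x, y⁆ ^ k) * π y * π x ^ k := by rw [ih]; group
          _ = π ⁅x, y⁆ ^ k * (π x * π y) * π x ^ k := by rw [h2.eq]; group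
          _ = π ⁅x, y⁆ ^ (k + 1) * π y * π x ^ (k + 1) := by
            rw [h1, pow_succ (π ⁅x, y⁆), pow_succ' (π x)]; simp only [mul_assoc]
    have h1 := hkey P.index
    have h2 : x ^ P.index ∈ P := pow_index_mem P x
    have h3 := hcen _ h2 y
    rw [map_pow] at h3
    rw [← h3, mul_assoc] at h1
    have h4 : π ⁅x, y⁆ ^ P.index = 1 := (mul_eq_right.1 h1.symm)
    obtain ⟨j, hj⟩ := hppow _ hcP
    have h5 : π ⁅x, y⁆ ^ p ^ j = 1 := by rw [← map_pow, hj, map_one]
    exact (QuotientGroup.eq_one_iff _).1 (eq_one_of_pow hp.out h5 h4 hidx)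

end Cfsg.Agent.H24.SqFree
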