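import Mathlib
import Cfsg.Agent.H24_SqFree3
import Cfsg.Agent.H1_Super3
import Cfsg.Agent.H22_PSolv
import Cfsg.Agent.H11_Cores
import Cfsg.Agent.H1_Hall
import Cfsg.Agent.H24_Basic
import Cfsg.Agent.H2_Card

/-! Groups all of whose class sizes are square-free: the commutator subgroup is cyclic of square-free order. -/

set_option autoImplicit false

open Subgroup Cfsg
open scoped Pointwise commutatorElement

namespace Cfsg.Agent.H24.SqFree

universe u

theorem solvable (n : ℕ) : ∀ (G : Type u) [Group G] [Finite G], Nat.card G = n → SF G → Group.IsSolvable G := by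
  induction n using Nat.strong_induction_on with
  | _ n ih =>
    intro G _ _ hn hSF
    classical
    by_cases htriv : Subsingleton G
    · infer_instance
    rw [not_subsingleton_iff_nontrivial] at htriv
    by_cases hsimp : IsSimpleGroup G
    · have hcomm : ∀ x y : G, x * y = y * x := by
        by_contra hcon
        push Not at hcon
        exact not_simple hcon hSF
      exact IsSimpleGroup.comm_iff_isSolvable.mp hcomm
    · have : ∃ N : Subgroup G, N.Normal ∧ N ≠ ⊥ ∧ N ≠ ⊤ := by
        by_contra hne
        push Not at hne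
        apply hsimp
        exact { eq_bot_or_eq_top_of_normal := fun N hN => by
                  by_cases h : N = ⊥
                  · exact Or.inl h
                  · exact Or.inr (hne N hN h) }
      obtain ⟨N, hN, hbot, htop⟩ := this
      have hmul := N.card_mul_index
      have hN1 : 1 < Nat.card N := N.one_lt_card_iff_ne_bot.mpr hbot
      have hi1 : N.index ≠ 1 := fun h => htop (Subgroup.index_eq_one.mp h)
      have hi0 : N.index ≠ 0 := Subgroup.FiniteIndex.index_ne_zero
      have hlt1 : Nat.card N < n := by
        rw [← hn, ← hmul]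
        exact lt_mul_of_one_lt_right Nat.card_pos (by omega)
      have hlt2 : N.index < n := by
        rw [← hn, ← hmul]
        exact lt_mul_of_one_lt_left (by omega) hN1
      have s1 : Group.IsSolvable N := ih _ hlt1 N rfl (hSF.normal N)
      have s2 : Group.IsSolvable (G ⧸ N) := ih _ hlt2 (G ⧸ N)
        (Subgroup.index_eq_card N).symm (hSF.quotient N)
      exact (Group.isSolvable_iff_subgroup_quotient N).mpr ⟨s1, s2⟩

theorem cyclic_of {A : Type u} [Group A] [Finite A] (hc : ∀ a b : A, a * b = b * a) (hs : Squarefree (Nat.card A)) : IsCyclic A := by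
  letI : CommGroup A := { (inferInstance : Group A) with mul_comm := hc }
  haveI : IsZGroup A := IsZGroup.of_squarefree hs
  infer_instance

theorem relIndex_dvd {G : Type u} [Group G] [Finite G] (h : SF G) {p : ℕ} [hp : Fact p.Prime] (P : Subgroup G) [P.Normal]
    (hP : IsPGroup p P) (x : G) : (centralizer ({x} : Set G)).relIndex P ∣ p := by
  have h1 : Squarefree ((centralizer ({x} : Set G)).relIndex P) :=
    (h x).squarefree_of_dvd (H24.CSG.relIndex_dvd_index _ P)
  obtain ⟨k, hk⟩ := hP.exists_card_eq
  have h2 : (centralizer ({x} : Set G)).relIndex P ∣ p ^ k := hk ▸ relIndex_dvd_card _ _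
  obtain ⟨j, hj, hj2⟩ := (Nat.dvd_prime_pow hp.out).1 h2
  rw [hj2] at h1 ⊢
  have : j ≤ 1 := by
    by_contra hj1
    push Not at hj1
    have h3 : p * p ∣ p ^ j := by rw [← pow_two]; exact pow_dvd_pow p hj1
    exact hp.out.one_lt.ne' (Nat.isUnit_iff.1 (h1 p h3))
  calc p ^ j ∣ p ^ 1 := pow_dvd_pow p this
    _ = p := pow_one p

theorem map_comm {G : Type u} [Group G] (N : Subgroup G) [N.Normal] :
    (commutator G).map (QuotientGroup.mk' N) = commutator (G ⧸ N) := by
  rw [_root_.commutator_def, _root_.commutator_def, map_commutator, map_top_of_surjective _ (QuotientGroup.mk'_surjective N)]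

theorem derived (n : ℕ) : ∀ (G : Type u) [Group G] [Finite G], Nat.card G = n → SF G → Group.IsSolvable G →
    (∀ a ∈ commutator G, ∀ b ∈ commutator G, a * b = b * a) ∧ Squarefree (Nat.card (commutator G)) := by
  induction n using Nat.strong_induction_on with
  | _ n ih =>
    intro G _ _ hn hSF hsol
    by_cases htriv : Subsingleton G
    · refine ⟨fun a _ b _ => Subsingleton.elim _ _, ?_⟩
      have : Nat.card (commutator G) = 1 := by
        have : commutator G = ⊥ := Subsingleton.elim _ _
        rw [this, card_bot]
      rw [this]; exact squarefree_one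
    rw [not_subsingleton_iff_nontrivial] at htriv
    have hquot : ∀ K : Subgroup G, ∀ hK : K.Normal, K ≠ ⊥ →
        (∀ a ∈ commutator (G ⧸ K), ∀ b ∈ commutator (G ⧸ K), a * b = b * a) ∧ Squarefree (Nat.card (commutator (G ⧸ K))) := by
      intro K hK hKb
      have hmul := K.card_mul_index
      have hK1 : 1 < Nat.card K := K.one_lt_card_iff_ne_bot.mpr hKb
      have hi0 : K.index ≠ 0 := Subgroup.FiniteIndex.index_ne_zero
      have hlt2 : K.index < n := by
        rw [← hn, ← hmul]
        exact lt_mul_of_one_lt_left (by omega) hK1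
      exact ih _ hlt2 (G ⧸ K) (Subgroup.index_eq_card K).symm (hSF.quotient K) inferInstance
    obtain ⟨M, hMn, hM, hMmin⟩ := H1.Hall.exists_minimal_normal_of_nontrivial G
    obtain ⟨hMc, p, hp, hMe⟩ := H1.Hall.minimal_normal_elementary M hM hMmin
    haveI : Fact p.Prime := ⟨hp⟩
    have hMp : IsPGroup p M := fun m => ⟨1, by rw [pow_one]; exact Subtype.ext (hMe m m.2)⟩
    have hMab : ∀ a ∈ M, ∀ b ∈ M, a * b = b * a := fun a ha b hb =>
      congrArg Subtype.val (hMc.is_comm.comm ⟨a, ha⟩ ⟨b, hb⟩)
    have hMcard : Nat.card M = p := min_normal M hMab hMp hM hMmin (relIndex_dvd hSF M hMp)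
    haveI hMcyc : IsCyclic M := isCyclic_of_prime_card hMcard
    have hDM : commutator G ≤ centralizer (M : Set G) := H1.Super.commutator_le_centralizer_cyclic M
    obtain ⟨hq1, hq2⟩ := hquot M hMn hM
    have hDab : ∀ a ∈ commutator G, ∀ b ∈ commutator G, a * b = b * a := by
      haveI : IsCyclic (commutator (G ⧸ M)) :=
        cyclic_of (fun a b => Subtype.ext (hq1 a a.2 b b.2)) hq2
      let f : commutator G →* commutator (G ⧸ M) :=
        ((QuotientGroup.mk' M).comp (commutator G).subtype).codRestrict (commutator (G ⧸ M)) (by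
          intro x
          rw [← map_comm]
          exact ⟨x, x.2, rfl⟩)
      intro a ha b hb
      have hker : f.ker ≤ center (commutator G) := by
        intro x hx
        rw [MonoidHom.mem_ker] at hx
        have h1 : QuotientGroup.mk' M (x : G) = 1 := congrArg Subtype.val hx
        have h2 : (x : G) ∈ M := (QuotientGroup.eq_one_iff _).1 h1
        rw [mem_center_iff]
        intro y
        apply Subtype.ext
        exact ((mem_centralizer_iff.1 (hDM y.2)) x h2).symm
      have h1 := commutative_of_cyclic_center_quotient f hker ⟨a, ha⟩ ⟨b, hb⟩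
      exact congrArg Subtype.val h1
    refine ⟨hDab, ?_⟩
    rw [Nat.squarefree_iff_prime_squarefree]
    intro r hr hrr
    haveI : Fact r.Prime := ⟨hr⟩
    have hcop : ∀ K : Subgroup G, K.Normal → (Nat.card K).Coprime r → K = ⊥ := by
      intro K hK hKr
      by_contra hKb
      obtain ⟨-, h2⟩ := hquot K hK hKb
      have h3 : Nat.card (commutator (G ⧸ K)) = K.relIndex (commutator G) := by
        rw [← map_comm, relIndex, ← MonoidHom.domRestrict_range, ← index_ker, MonoidHom.ker_domRestrict, QuotientGroup.ker_mk']
      rw [h3] at h2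
      have h4 : K.relIndex (commutator G) * Nat.card (K ⊓ commutator G : Subgroup G) = Nat.card (commutator G) := by
        have := H1.Basic.relIndex_mul_card (inf_le_right : K ⊓ commutator G ≤ commutator G)
        rwa [inf_relIndex_right] at this
      have h5 : Nat.Coprime (r * r) (Nat.card (K ⊓ commutator G : Subgroup G)) := by
        have h6 : Nat.Coprime (Nat.card (K ⊓ commutator G : Subgroup G)) r :=
          Nat.Coprime.coprime_dvd_left (card_dvd_of_le inf_le_left) hKr
        exact (h6.mul_right h6).symm
      rw [← h4] at hrr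
      have h7 := h5.dvd_of_dvd_mul_right hrr
      exact hr.one_lt.ne' (Nat.isUnit_iff.1 (h2 r h7))
    have hO : pPrimeCore r G = ⊥ := by
      haveI := H11.Cores.pPrimeCore_characteristic (G := G) r
      exact hcop _ inferInstance (H11.Cores.pPrimeCore_coprime r)
    set D := commutator G with hD
    have hOD : pPrimeCore r D = ⊥ := by
      have h1 : ((pPrimeCore r D).map D.subtype).Normal := H11.Cores.map_subtype_normal_of_characteristic _ _
      have h2 := hcop _ h1 (by
        rw [card_map_of_injective D.subtype_injective]
        exact H11.Cores.pPrimeCore_coprime r)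
      exact (map_eq_bot_iff_of_injective _ D.subtype_injective).1 h2
    have hDr : IsPGroup r D := by
      apply IsPGroup.of_card (n := (Nat.card D).primeFactorsList.length)
      apply Nat.eq_prime_pow_of_unique_prime_dvd Nat.card_pos.ne'
      intro q hq hqd
      by_contra hqr
      haveI : Fact q.Prime := ⟨hq⟩
      obtain ⟨d, hd⟩ := exists_prime_orderOf_dvd_card' (G := D) q hqd
      have h1 : (zpowers d).Normal := by
        constructor
        intro y hy g
        have : g * y * g⁻¹ = y := by
          have h2 : g * y = y * g := Subtype.ext (hDab g g.2 y y.2)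
          rw [h2]; group
        rw [this]; exact hy
      have h2 : zpowers d ≤ pPrimeCore r D := H11.Cores.le_pPrimeCore r (by
        rw [Nat.card_zpowers, hd]
        exact (Nat.coprime_primes hq hr).2 hqr)
      rw [hOD, le_bot_iff, zpowers_eq_bot] at h2
      rw [h2, orderOf_one] at hd
      exact hq.one_lt.ne hd
    obtain ⟨P⟩ : Nonempty (Sylow r G) := inferInstance
    have hcoreP : pCore r G ≤ (P : Subgroup G) := by
      obtain ⟨Q, hQ⟩ := (H11.Cores.pCore_isPGroup (G := G) r).exists_le_sylow
      obtain ⟨g, hg⟩ := MulAction.exists_smul_eq G Q P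
      intro x hx
      haveI := H11.Cores.pCore_characteristic (G := G) r
      have hn' : (pCore r G).Normal := inferInstance
      have h1 := hn'.conj_mem x hx g⁻¹
      have h2 := hQ h1
      rw [← hg, Sylow.coe_subgroup_smul]
      exact ⟨_, h2, by show g * (g⁻¹ * x * g⁻¹⁻¹) * g⁻¹ = x; group⟩
    have hDP : D ≤ (P : Subgroup G) := (H11.Cores.le_pCore r hDr).trans hcoreP
    haveI hPn : (P : Subgroup G).Normal := by
      constructor
      intro x hx g
      have h1 : g * x * g⁻¹ = ⁅g, x⁆ * x := by rw [commutatorElement_def]; group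
      rw [h1]
      exact mul_mem (hDP (commutator_mem_commutator (mem_top _) (mem_top _))) hx
    have hPc : (P : Subgroup G) = pCore r G := le_antisymm (H11.Cores.le_pCore r P.isPGroup') hcoreP
    have hCP : centralizer ((P : Subgroup G) : Set G) ≤ (P : Subgroup G) := by
      rw [hPc]
      exact H22.PSolv.centralizer_pCore_le (H22.PSolv.isPSolvable_of_isSolvable hsol) hO
    have hfin := p_part (P : Subgroup G) P.isPGroup' P.not_dvd_index hDP hCP (relIndex_dvd hSF _ P.isPGroup')
    have h8 : r * r ≤ r := Nat.le_of_dvd hr.pos (hrr.trans hfin)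
    nlinarith [hr.two_le]

end Cfsg.Agent.H24.SqFree
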