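import Mathlib
import Cfsg.Prelude.Def_Blocks
import Cfsg.Agent.H3_GalP
import Cfsg.Agent.H3_CharQuot
import Cfsg.Agent.S0169
import Cfsg.Agent.H13_NPC
import Cfsg.Agent.H2_Fusion4
import Cfsg.Agent.H24_SameOrd

/-! Extending characters of a Sylow normalizer and normal complements. -/

set_option autoImplicit false

open Subgroup Cfsg
open scoped Pointwise commutatorElement

universe u

namespace Cfsg.Agent.H24.SylChar

open Cfsg.Agent.H1.Basic Cfsg.Agent.H1.Hall Cfsg.Agent.H1.Coprime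

variable {G : Type u} [Group G]

/-- group theoretic part -/
theorem burnside_quot [Finite G] {p : ℕ} [hp : Fact p.Prime] (P : Sylow p G) (M K : Subgroup G) [M.Normal] [hKn : K.Normal]
    (hPM : (P : Subgroup G) ≤ M) (hKM : K ≤ M)
    (hMN : M ⊓ normalizer ((P : Subgroup G) : Set G) ≤ P) (hPK : ⁅(P : Subgroup G), (P : Subgroup G)⁆ ≤ K) :
    HasNormalPComplement p (M ⧸ K.subgroupOf M) := by
  obtain ⟨f, hf⟩ : ∃ f, f = QuotientGroup.mk' (K.subgroupOf M) := ⟨_, rfl⟩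
  have hfs : Function.Surjective f := by rw [hf]; exact QuotientGroup.mk'_surjective _
  have hfk : ∀ x : M, f x = 1 ↔ (x : G) ∈ K := by
    intro x
    rw [hf, QuotientGroup.mk'_apply, QuotientGroup.eq_one_iff, mem_subgroupOf]
  obtain ⟨PX, hPX⟩ : ∃ PX, PX = (P.subtype hPM).mapSurjective hfs := ⟨_, rfl⟩
  have hPXmem : ∀ y, y ∈ PX ↔ ∃ z : M, (z : G) ∈ P ∧ f z = y := by
    intro y
    have h0 : (PX : Subgroup (M ⧸ K.subgroupOf M)) = ((P.subtype hPM : Sylow p M) : Subgroup M).map f := by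
      rw [hPX]; exact Sylow.coe_mapSurjective hfs (P.subtype hPM)
    change y ∈ (PX : Subgroup (M ⧸ K.subgroupOf M)) ↔ _
    rw [h0]
    constructor
    · rintro ⟨z, hz, rfl⟩
      exact ⟨z, hz, rfl⟩
    · rintro ⟨z, hz, rfl⟩
      exact ⟨z, hz, rfl⟩
  have hmemT : ∀ x : M, f x ∈ PX ↔ (x : G) ∈ K ⊔ (P : Subgroup G) := by
    intro x
    rw [hPXmem]
    constructor
    · rintro ⟨z, hz, hzx⟩
      have h1 : f (x * z⁻¹) = 1 := by rw [map_mul, map_inv, hzx, mul_inv_cancel]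
      have h2 := (hfk _).1 h1
      have h3 : (x : G) = ((x * z⁻¹ : M) : G) * z := by simp
      rw [h3]
      exact mul_mem (mem_sup_left h2) (mem_sup_right hz)
    · intro hx
      rw [mem_sup_of_normal_left] at hx
      obtain ⟨k, hk, z, hz, hkz⟩ := hx
      refine ⟨⟨z, hPM hz⟩, hz, ?_⟩
      have h1 : x = ⟨k, hKM hk⟩ * ⟨z, hPM hz⟩ := Subtype.ext hkz.symm
      rw [h1, map_mul, (hfk ⟨k, hKM hk⟩).2 hk, one_mul]
  have hkey : ∀ x : M, f x ∈ normalizer ((PX : Subgroup (M ⧸ K.subgroupOf M)) : Set (M ⧸ K.subgroupOf M)) → (x : G) ∈ K ⊔ (P : Subgroup G) := by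
    intro x hx
    have h1 : MulAut.conj (x : G) • (P : Subgroup G) ≤ K ⊔ P := by
      intro y hy
      rw [mem_conj] at hy
      have hyM : y ∈ M := by
        have := mul_mem (mul_mem x.2 (hPM hy)) (inv_mem x.2)
        simpa [mul_assoc] using this
      apply (hmemT ⟨y, hyM⟩).1
      have h2 : f (⟨(x : G)⁻¹ * y * x, hPM hy⟩ : M) ∈ (PX : Subgroup (M ⧸ K.subgroupOf M)) := (hPXmem _).2 ⟨_, hy, rfl⟩
      have h3 := (mem_normalizer_iff.1 hx _).1 h2
      have h4 : (⟨y, hyM⟩ : M) = x * ⟨(x : G)⁻¹ * y * x, hPM hy⟩ * x⁻¹ := by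
        apply Subtype.ext
        simp [mul_assoc]
      rw [h4, map_mul, map_mul, map_inv]
      exact h3
    have hcP : ∀ Q : Subgroup G, Nat.card Q = Nat.card P → Q ≤ K ⊔ P →
        Nat.card Q = p ^ (Nat.card (K ⊔ (P : Subgroup G) : Subgroup G)).factorization p := by
      intro Q hQ hQT
      rw [hQ, P.card_eq_multiplicity]
      congr 1
      apply le_antisymm
      · rw [← Nat.Prime.pow_dvd_iff_le_factorization hp.out (Nat.card_pos).ne', ← P.card_eq_multiplicity]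
        exact card_dvd_of_le le_sup_right
      · exact (Nat.factorization_le_iff_dvd (Nat.card_pos).ne' (Nat.card_pos).ne').2 (card_subgroup_dvd_card _) p
    obtain ⟨t, ht, htP⟩ := exists_conj_of_card_eq (K := K ⊔ (P : Subgroup G)) (P := P) (Q := MulAut.conj (x : G) • (P : Subgroup G)) (p := p)
      le_sup_right h1 (hcP _ rfl le_sup_right) (hcP _ (card_conj _ _) h1)
    have htM : t ∈ M := (sup_le hKM hPM) ht
    have h5 : t⁻¹ * x ∈ (P : Subgroup G) := by
      have h7 : t⁻¹ * x ∈ normalizer ((P : Subgroup G) : Set G) := by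
        rw [← conj_eq_iff_mem_normalizer, ← conj_conj, ← htP, conj_conj, inv_mul_cancel, conj_one]
      exact hMN (mem_inf.2 ⟨mul_mem (inv_mem htM) x.2, h7⟩)
    have h6 := mul_mem ht ((le_sup_right : (P : Subgroup G) ≤ K ⊔ P) h5)
    rwa [mul_inv_cancel_left] at h6
  have hNC : normalizer ((PX : Subgroup (M ⧸ K.subgroupOf M)) : Set (M ⧸ K.subgroupOf M)) ≤ centralizer ((PX : Subgroup (M ⧸ K.subgroupOf M)) : Set (M ⧸ K.subgroupOf M)) := by
    intro y hy
    obtain ⟨x, rfl⟩ := hfs y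
    have h1 := (hmemT x).2 (hkey x hy)
    obtain ⟨z, hz, hzx⟩ := (hPXmem _).1 h1
    rw [← hzx, mem_centralizer_iff]
    intro w hw
    obtain ⟨w, hwP, rfl⟩ := (hPXmem _).1 hw
    rw [← map_mul, ← map_mul, ← mul_inv_eq_one, ← map_inv, ← map_mul, hfk]
    have h2 : ((w * z * (z * w)⁻¹ : M) : G) = ⁅(w : G), (z : G)⁆ := by
      rw [commutatorElement_def]; simp [mul_assoc]
    rw [h2]
    exact hPK (commutator_mem_commutator hwP hz)
  exact ⟨PX, _, inferInstance, MonoidHom.ker_transferSylow_isComplement' PX hNC⟩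

theorem grp [Finite G] {p : ℕ} [hp : Fact p.Prime] (P : Sylow p G) (M K : Subgroup G) [hMn : M.Normal] [hKn : K.Normal]
    (hPM : (P : Subgroup G) ≤ M) (hKM : K ≤ M)
    (hMN : M ⊓ normalizer ((P : Subgroup G) : Set G) ≤ P)
    (hKN : K ⊓ normalizer ((P : Subgroup G) : Set G) ≤ ⁅(P : Subgroup G), (P : Subgroup G)⁆)
    (hPK : ⁅(P : Subgroup G), (P : Subgroup G)⁆ ≤ K) :
    ∃ R : Subgroup G, R.Normal ∧ R ⊔ normalizer ((P : Subgroup G) : Set G) = ⊤ ∧
      R ⊓ normalizer ((P : Subgroup G) : Set G) = ⊥ := by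
  obtain ⟨R₁, hR₁n, hR₁c, k, hk⟩ := H2.Basic.npc_iff.1 (burnside_quot P M K hPM hKM hMN hPK)
  have hR₁ := H2.Basic.mem_npc_iff hR₁c hk
  obtain ⟨R, hR⟩ : ∃ R, R = H13.NPC.Op p M := ⟨_, rfl⟩
  have hRM : R ≤ M := hR ▸ H13.NPC.Op_le M
  have hRn : R.Normal := by
    constructor
    intro x hx g
    have h1 : ∀ y ∈ {x | x ∈ M ∧ (orderOf x).Coprime p}, g * y * g⁻¹ ∈ {x | x ∈ M ∧ (orderOf x).Coprime p} := by
      rintro y ⟨hy, hyo⟩
      refine ⟨hMn.conj_mem y hy g, ?_⟩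
      have : orderOf (g * y * g⁻¹) = orderOf y := by
        have h1 : g * y * g⁻¹ = MulAut.conj g y := by rw [MulAut.conj_apply]
        rw [h1]
        exact orderOf_injective (MulAut.conj g).toMonoidHom (MulAut.conj g).injective y
      rw [this]; exact hyo
    have h2 : (closure {x | x ∈ M ∧ (orderOf x).Coprime p}).map (MulAut.conj g).toMonoidHom ≤ closure {x | x ∈ M ∧ (orderOf x).Coprime p} := by
      rw [MonoidHom.map_closure, closure_le]
      rintro _ ⟨y, hy, rfl⟩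
      exact subset_closure (h1 y hy)
    rw [hR] at hx ⊢
    exact h2 ⟨x, hx, rfl⟩
  -- K₂ ∩ P ≤ K
  have hK2 : ∀ x (hx : x ∈ M), x ∈ K ⊔ R → (QuotientGroup.mk' (K.subgroupOf M) ⟨x, hx⟩) ∈ R₁ := by
    have h1 : K ⊔ R ≤ (R₁.comap (QuotientGroup.mk' (K.subgroupOf M))).map M.subtype := by
      apply sup_le
      · intro x hx
        refine ⟨⟨x, hKM hx⟩, ?_, rfl⟩
        have h2 : QuotientGroup.mk' (K.subgroupOf M) ⟨x, hKM hx⟩ = 1 := (QuotientGroup.eq_one_iff _).2 hx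
        change QuotientGroup.mk' (K.subgroupOf M) ⟨x, hKM hx⟩ ∈ R₁
        rw [h2]; exact one_mem _
      · rw [hR, H13.NPC.Op, closure_le]
        rintro x ⟨hx, hxo⟩
        refine ⟨⟨x, hx⟩, ?_, rfl⟩
        change QuotientGroup.mk' (K.subgroupOf M) ⟨x, hx⟩ ∈ R₁
        rw [hR₁]
        apply Nat.Coprime.coprime_dvd_left (orderOf_map_dvd _ _)
        rwa [orderOf_mk]
    intro x hx hxK
    obtain ⟨y, hy, hyx⟩ := h1 hxK
    have h2 : y = ⟨x, hx⟩ := Subtype.ext hyx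
    rw [← h2]; exact hy
  have hfr : (K ⊔ R) ⊓ (P : Subgroup G) ≤ (frattini P).map (P : Subgroup G).subtype := by
    intro x hx
    have hxP : x ∈ (P : Subgroup G) := hx.2
    have h1 := hK2 x (hPM hxP) hx.1
    rw [hR₁] at h1
    have h2 : QuotientGroup.mk' (K.subgroupOf M) ⟨x, hPM hxP⟩ = 1 := by
      obtain ⟨j, hj⟩ := P.2 ⟨x, hxP⟩
      have h3 : x ^ p ^ j = 1 := congrArg Subtype.val hj
      have h4 : (QuotientGroup.mk' (K.subgroupOf M) ⟨x, hPM hxP⟩) ^ p ^ j = 1 := by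
        rw [← map_pow]
        have : (⟨x, hPM hxP⟩ : M) ^ p ^ j = 1 := Subtype.ext h3
        rw [this, map_one]
      have h5 := orderOf_dvd_of_pow_eq_one h4
      have h6 : Nat.gcd (orderOf (QuotientGroup.mk' (K.subgroupOf M) ⟨x, hPM hxP⟩)) (p ^ j) = 1 := Nat.Coprime.pow_right j h1
      rw [Nat.gcd_eq_left h5] at h6
      exact orderOf_eq_one_iff.1 h6
    have hxK : x ∈ K := (QuotientGroup.eq_one_iff (N := K.subgroupOf M) ⟨x, hPM hxP⟩).1 h2
    have h3 := hKN ⟨hxK, le_normalizer hxP⟩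
    have h4 : commutator P ≤ frattini P := H2.PGroup.commutator_le_frattini P.2
    have h5 : ⁅(P : Subgroup G), (P : Subgroup G)⁆ = (commutator P).map (P : Subgroup G).subtype := by
      rw [map_subtype_commutator]
    rw [h5] at h3
    exact map_mono h4 h3
  obtain ⟨N₂, hN₂n, hN₂c, j, hj⟩ := H2.Basic.npc_iff.1 (H2.Fusion4.npc_of_inf_le_frattini P (K ⊔ R) hfr)
  have hN₂ := H2.Basic.mem_npc_iff hN₂c hj
  have hRN₂ : R ≤ N₂.map (K ⊔ R).subtype := by
    have h1 : closure {x | x ∈ M ∧ (orderOf x).Coprime p} ≤ N₂.map (K ⊔ R).subtype := by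
      rw [closure_le]
      rintro x ⟨hx, hxo⟩
      have hxR : x ∈ R := hR ▸ H13.NPC.mem_Op hx hxo
      refine ⟨⟨x, (le_sup_right : R ≤ K ⊔ R) hxR⟩, ?_, rfl⟩
      rw [SetLike.mem_coe, hN₂, orderOf_mk]
      exact hxo
    exact hR.le.trans h1
  have hRc : ¬ p ∣ Nat.card R := by
    intro h1
    apply hN₂c
    have h2 := h1.trans (card_dvd_of_le hRN₂)
    rwa [card_map_of_injective (K ⊔ R).subtype_injective] at h2
  refine ⟨R, hRn, ?_, ?_⟩
  · -- M ≤ R ⊔ P
    have hMRP : M ≤ R ⊔ (P : Subgroup G) := by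
      haveI : (R.subgroupOf M).Normal := inferInstance
      have hPg : IsPGroup p (M ⧸ R.subgroupOf M) := by
        intro y
        obtain ⟨x, rfl⟩ := QuotientGroup.mk'_surjective (R.subgroupOf M) y
        obtain ⟨a, m, hm, hnm⟩ := Nat.exists_eq_pow_mul_and_not_dvd (orderOf_pos (x : G)).ne' p hp.out.ne_one
        refine ⟨a, ?_⟩
        rw [← map_pow]
        apply (QuotientGroup.eq_one_iff _).2
        rw [mem_subgroupOf, coe_pow, hR]
        apply H13.NPC.mem_Op (pow_mem x.2 _)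
        have h1 : ((x : G) ^ p ^ a) ^ m = 1 := by rw [← pow_mul, ← hnm, pow_orderOf_eq_one]
        exact Nat.Coprime.coprime_dvd_left (orderOf_dvd_of_pow_eq_one h1) ((Nat.Prime.coprime_iff_not_dvd hp.out).2 hm).symm
      have h1 := H24.SameOrd.sylow_map_top hPg (QuotientGroup.mk' (R.subgroupOf M)) (QuotientGroup.mk'_surjective _) (P.subtype hPM)
      intro x hx
      have h2 : QuotientGroup.mk' (R.subgroupOf M) ⟨x, hx⟩ ∈ ((P.subtype hPM : Sylow p M) : Subgroup M).map (QuotientGroup.mk' (R.subgroupOf M)) := by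
        rw [h1]; trivial
      obtain ⟨z, hz, hzx⟩ := h2
      have h3 : z⁻¹ * ⟨x, hx⟩ ∈ R.subgroupOf M := QuotientGroup.eq.1 hzx
      have h4 : (z : G)⁻¹ * x ∈ R := h3
      have h5 : (z : G) ∈ (P : Subgroup G) := hz
      have h6 := mul_mem ((le_sup_right : (P : Subgroup G) ≤ R ⊔ P) h5) ((le_sup_left : R ≤ R ⊔ (P : Subgroup G)) h4)
      rwa [mul_inv_cancel_left] at h6
    have hFr := Sylow.normalizer_sup_eq_top (P.subtype hPM)
    have h7 : ((P.subtype hPM : Sylow p M) : Subgroup M).map M.subtype = (P : Subgroup G) := by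
      rw [Sylow.coe_subtype, subgroupOf_map_subtype, inf_eq_left.2 hPM]
    rw [h7] at hFr
    rw [eq_top_iff, ← hFr]
    exact sup_le le_sup_right (hMRP.trans (sup_le le_sup_left (le_normalizer.trans le_sup_right)))
  · rw [eq_bot_iff]
    intro x hx
    have h1 : x ∈ (P : Subgroup G) := hMN ⟨hRM hx.1, hx.2⟩
    obtain ⟨j, hj⟩ := P.2 ⟨x, h1⟩
    have h3 : x ^ p ^ j = 1 := congrArg Subtype.val hj
    have h4 : orderOf x ∣ Nat.card R := by
      rw [← orderOf_mk x hx.1]; exact orderOf_dvd_natCard _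
    have h5 : orderOf x ∣ Nat.gcd (p ^ j) (Nat.card R) := Nat.dvd_gcd (orderOf_dvd_of_pow_eq_one h3) h4
    rw [Nat.Coprime.pow_left j ((Nat.Prime.coprime_iff_not_dvd hp.out).2 hRc), Nat.dvd_one] at h5
    rw [mem_bot]
    exact orderOf_eq_one_iff.1 h5

open Cfsg.Agent.H3.CharQuot in
/-- degrees of characters trivial on a normal subgroup modulo which `A` is abelian -/
theorem degree_dvd {N : Type u} [Group N] [Finite N] (A D : Subgroup N) [A.Normal] [D.Normal]
    (hAD : ∀ a ∈ A, ∀ b ∈ A, ⁅a, b⁆ ∈ D) {θ : N → ℂ} (hθ : IsIrrCharacter N θ) (hθD : ∀ x ∈ D, θ x = θ 1) :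
    charDegree θ ∣ A.index := by
  obtain ⟨θ', hθ', hθθ⟩ := IsIrr.descend hθ D hθD
  obtain ⟨n, ρ, hρ, rfl⟩ := hθ'
  have h1 := Cfsg.Agent.S0169.result ρ (A.map (QuotientGroup.mk' D)) (hH := by
    rintro _ ⟨a, ha, rfl⟩ _ ⟨b, hb, rfl⟩
    rw [← map_mul, ← map_mul, ← mul_inv_eq_one, ← map_inv, ← map_mul]
    apply (QuotientGroup.eq_one_iff _).2
    have h3 : a * b * (b * a)⁻¹ = ⁅a, b⁆ := by rw [commutatorElement_def]; group
    rw [h3]
    exact hAD a ha b hb)
  have h2 : charDegree θ = Module.finrank ℂ (Fin n → ℂ) := by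
    rw [charDegree, ← hθθ, QuotientGroup.mk_one, Representation.char_one]
    simp
  rw [h2]
  exact h1.trans (index_map_dvd _ (QuotientGroup.mk'_surjective D))

open Cfsg.Agent.H3.CharQuot in
theorem exists_sep {N : Type u} [Group N] [Finite N] (M : Subgroup N) [M.Normal] {x : N} (hx : x ∉ M) :
    ∃ θ : N → ℂ, IsIrrCharacter N θ ∧ (∀ y ∈ M, θ y = θ 1) ∧ θ x ≠ θ 1 := by
  have := Fintype.ofFinite (N ⧸ M)
  obtain ⟨θ, hθ, hne⟩ := H3.GalP.exists_irr_ne (g := (x : N ⧸ M)) (fun h => hx ((QuotientGroup.eq_one_iff x).1 h))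
  refine ⟨_, IsIrr.inflate hθ, ?_, hne⟩
  intro y hy
  have h1 : (y : N ⧸ M) = 1 := (QuotientGroup.eq_one_iff y).2 hy
  simp only [h1, QuotientGroup.mk_one]

open Cfsg.Agent.H3.CharQuot in
theorem forward [Finite G] {p : ℕ} [hp : Fact p.Prime] (P : Sylow p G)
    (h : ∀ θ : Cfsg.IrrCharacter ↥(Subgroup.normalizer ((P : Subgroup G) : Set G)), ¬ p ∣ Cfsg.charDegree (θ : ↥(Subgroup.normalizer ((P : Subgroup G) : Set G)) → ℂ) →
        ∃ χ : Cfsg.IrrCharacter G, ∀ x : ↥(Subgroup.normalizer ((P : Subgroup G) : Set G)), (χ : G → ℂ) x = (θ : ↥(Subgroup.normalizer ((P : Subgroup G) : Set G)) → ℂ) x) :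
    ∃ R : Subgroup G, R.Normal ∧ R ⊔ normalizer ((P : Subgroup G) : Set G) = ⊤ ∧
      R ⊓ normalizer ((P : Subgroup G) : Set G) = ⊥ := by
  obtain ⟨N, hN⟩ : ∃ N, N = normalizer ((P : Subgroup G) : Set G) := ⟨_, rfl⟩
  rw [← hN] at h ⊢
  have hPN : (P : Subgroup G) ≤ N := hN ▸ le_normalizer
  haveI hA : ((P : Subgroup G).subgroupOf N).Normal := by rw [hN]; infer_instance
  have hidx : ¬ p ∣ ((P : Subgroup G).subgroupOf N).index := by
    intro h1
    exact P.not_dvd_index (h1.trans (relIndex_dvd_index_of_le hPN))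
  obtain ⟨D, hD⟩ : ∃ D, D = (⁅(P : Subgroup G), (P : Subgroup G)⁆).subgroupOf N := ⟨_, rfl⟩
  have hDP : ⁅(P : Subgroup G), (P : Subgroup G)⁆ ≤ P := commutator_le_self _
  haveI hDn : D.Normal := by
    have h1 : ⁅(P : Subgroup G), (P : Subgroup G)⁆.subgroupOf N = ⁅(P : Subgroup G).subgroupOf N, (P : Subgroup G).subgroupOf N⁆ := by
      apply map_injective N.subtype_injective
      rw [map_commutator, subgroupOf_map_subtype, subgroupOf_map_subtype, inf_eq_left.2 hPN, inf_eq_left.2 (hDP.trans hPN)]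
    rw [hD, h1]; infer_instance
  -- characters of N trivial on D extend
  have hext : ∀ θ : N → ℂ, IsIrrCharacter N θ → (∀ x ∈ D, θ x = θ 1) → ∃ χ : G → ℂ, IsIrrCharacter G χ ∧ ∀ x : N, χ x = θ x := by
    intro θ hθ hθD
    have h1 := degree_dvd ((P : Subgroup G).subgroupOf N) D (by
      intro a ha b hb
      rw [hD, mem_subgroupOf]
      exact commutator_mem_commutator ha hb) hθ hθD
    obtain ⟨χ, hχ⟩ := h ⟨θ, hθ⟩ (fun h2 => hidx (h2.trans h1))
    exact ⟨χ, χ.2, hχ⟩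
  -- the kernel
  let S := {χ : G → ℂ // IsIrrCharacter G χ ∧ ∀ x ∈ D, χ (x : N) = χ 1}
  obtain ⟨K, hK⟩ : ∃ K : Subgroup G, K = ⨅ χ : S, chKer χ.1 (H3.CharIrr.IsIrr.isCharacter χ.2.1) := ⟨_, rfl⟩
  have hKmem : ∀ x ∈ K, ∀ χ : G → ℂ, IsIrrCharacter G χ → (∀ x ∈ D, χ (x : N) = χ 1) → χ x = χ 1 := by
    intro x hx χ hχ hχD
    rw [hK, mem_iInf] at hx
    exact hx ⟨χ, hχ, hχD⟩
  haveI hKn : K.Normal := by
    rw [hK]
    apply normal_iInf_normal
    intro χ
    exact chKer_normal _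
  obtain ⟨M, hM⟩ : ∃ M, M = normalClosure ((P : Subgroup G) : Set G) ⊔ K := ⟨_, rfl⟩
  haveI hMn : M.Normal := hM ▸ inferInstance
  have hPM : (P : Subgroup G) ≤ M := by
    rw [hM]
    exact (show (P : Subgroup G) ≤ normalClosure ((P : Subgroup G) : Set G) from subset_normalClosure).trans le_sup_left
  have hMN : M ⊓ N ≤ P := by
    intro x hx
    by_contra hxP
    obtain ⟨θ, hθ, hθP, hne⟩ := exists_sep ((P : Subgroup G).subgroupOf N) (x := ⟨x, hx.2⟩) hxP
    have hθD : ∀ y ∈ D, θ y = θ 1 := by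
      intro y hy
      apply hθP
      rw [hD, mem_subgroupOf] at hy
      exact hDP hy
    obtain ⟨χ, hχ, hχθ⟩ := hext θ hθ hθD
    have hχ1 : χ 1 = θ 1 := hχθ 1
    have h1 : M ≤ chKer χ (H3.CharIrr.IsIrr.isCharacter hχ) := by
      rw [hM]
      apply sup_le
      · haveI := chKer_normal (H3.CharIrr.IsIrr.isCharacter hχ)
        apply normalClosure_le_normal
        intro y hy
        rw [SetLike.mem_coe, mem_chKer]
        rw [hχθ ⟨y, hPN hy⟩, hχ1]
        exact hθP _ hy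
      · intro y hy
        rw [mem_chKer]
        exact hKmem y hy χ hχ (fun z hz => by rw [hχθ, hχ1]; exact hθD z hz)
    have h2 := h1 hx.1
    rw [mem_chKer] at h2
    apply hne
    rw [← hχθ, ← hχ1]
    exact h2
  have hKN : K ⊓ N ≤ ⁅(P : Subgroup G), (P : Subgroup G)⁆ := by
    intro x hx
    by_contra hxP
    obtain ⟨θ, hθ, hθD, hne⟩ := exists_sep D (x := ⟨x, hx.2⟩) (by rw [hD]; exact hxP)
    obtain ⟨χ, hχ, hχθ⟩ := hext θ hθ hθD
    have hχ1 : χ 1 = θ 1 := hχθ 1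
    have h2 := hKmem x hx.1 χ hχ (fun z hz => by rw [hχθ, hχ1]; exact hθD z hz)
    apply hne
    rw [← hχθ, ← hχ1]
    exact h2
  have hPK : ⁅(P : Subgroup G), (P : Subgroup G)⁆ ≤ K := by
    intro x hx
    rw [hK, mem_iInf]
    intro χ
    rw [mem_chKer]
    exact χ.2.2 ⟨x, hPN (hDP hx)⟩ (by rw [hD]; exact hx)
  subst hN
  exact grp P M K hPM (hM ▸ le_sup_right) hMN hKN hPK

theorem backward [Finite G] (N K : Subgroup G) [hK : K.Normal] (hKN : K ⊔ N = ⊤) (hinf : K ⊓ N = ⊥) {θ : N → ℂ}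
    (hθ : IsIrrCharacter N θ) : ∃ χ : G → ℂ, IsIrrCharacter G χ ∧ ∀ x : N, χ x = θ x := by
  let f : N →* G ⧸ K := (QuotientGroup.mk' K).comp N.subtype
  have hf : Function.Bijective f := by
    constructor
    · rw [← MonoidHom.ker_eq_bot_iff, eq_bot_iff]
      intro x hx
      have h1 : (x : G) ∈ K := (QuotientGroup.eq_one_iff (x : G)).1 hx
      have h2 : (x : G) ∈ K ⊓ N := ⟨h1, x.2⟩
      rw [hinf, mem_bot] at h2
      exact Subtype.ext h2
    · intro y
      obtain ⟨g, rfl⟩ := QuotientGroup.mk'_surjective K y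
      have hg : g ∈ K ⊔ N := by rw [hKN]; trivial
      rw [mem_sup_of_normal_left] at hg
      obtain ⟨k, hk, n, hn, rfl⟩ := hg
      refine ⟨⟨n, hn⟩, ?_⟩
      change QuotientGroup.mk' K n = _
      rw [map_mul]
      have : QuotientGroup.mk' K k = 1 := (QuotientGroup.eq_one_iff k).2 hk
      rw [this, one_mul]
  let e : N ≃* G ⧸ K := MulEquiv.ofBijective f hf
  refine ⟨fun g => θ (e.symm.toMonoidHom.comp (QuotientGroup.mk' K) g), H3.CharInd.IsIrr.comp hθ _
    (e.symm.surjective.comp (QuotientGroup.mk'_surjective K)), ?_⟩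
  intro x
  change θ (e.symm (QuotientGroup.mk' K x)) = θ x
  congr 1
  exact e.symm_apply_apply x

end Cfsg.Agent.H24.SylChar
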