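import Mathlib
import Cfsg.Prelude.Def_Characters
import Cfsg.Agent.H3_NilpSplit
import Cfsg.Agent.H3_Clifford2
import Cfsg.Agent.H25_Brauer

/-!
# Class functions supported on sections
-/

set_option autoImplicit false

open scoped ComplexConjugate

namespace Cfsg.Agent.H3.PiSection

open Cfsg Cfsg.Agent.H3.CharBasic Cfsg.Agent.H3.CharIrr Cfsg.Agent.H3.CharComplete
  Cfsg.Agent.H3.CharMult Cfsg.Agent.H3.CharInd Cfsg.Agent.H3.CharInt Cfsg.Agent.H3.Clifford
  Cfsg.Agent.H25.Brauer Cfsg.Agent.H3.NilpSplit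

/-- Key computation in a nilpotent group. -/
theorem nilp_inner {E : Type*} [Group E] [Fintype E] [Group.IsNilpotent E] {m n : ℕ}
    (hmn : Nat.card E ∣ m * n) (hcop : m.Coprime n) (S : Set E) (θ : E → ℂ)
    (h1 : ∀ u v : E, (orderOf u).Coprime n → (orderOf v).Coprime m → v ∈ S → θ (u * v) = n)
    (h0 : ∀ u v : E, (orderOf u).Coprime n → (orderOf v).Coprime m → v ∉ S → θ (u * v) = 0)
    {χ : E → ℂ} (hχ : IsIrrCharacter E χ) : IsIntegral ℤ (classInner θ χ) := by
  classical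
  obtain ⟨A, B, hA, hB, hAm, hBn, hmemA, hmemB, hcomm, hcard, hbij⟩ := split hmn hcop
  have := Fintype.ofFinite A
  have := Fintype.ofFinite B
  have hsum : ∑ w : E, θ w * conj (χ w) =
      ∑ v : B, ∑ u : A, θ ((u : E) * v) * conj (χ ((u : E) * v)) := by
    rw [← Equiv.sum_comp (Equiv.ofBijective _ hbij), Fintype.sum_prod_type, Finset.sum_comm]
    rfl
  have hinner : ∀ v : B, ∑ u : A, θ ((u : E) * v) * conj (χ ((u : E) * v)) =
      (Nat.card A : ℂ) * ((n : ℂ) * ((if (v : E) ∈ S then 1 else 0) * conj (avg A χ v))) := by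
    intro v
    have h2 : ∀ u : A, θ ((u : E) * v) = (n : ℂ) * (if (v : E) ∈ S then 1 else 0) := by
      intro u
      by_cases hv : (v : E) ∈ S
      · rw [h1 u v ((hmemA u).mp u.2) ((hmemB v).mp v.2) hv, if_pos hv, mul_one]
      · rw [h0 u v ((hmemA u).mp u.2) ((hmemB v).mp v.2) hv, if_neg hv, mul_zero]
    rw [Finset.sum_congr rfl fun u _ => by rw [h2 u], ← Finset.mul_sum, ← map_sum]
    have h3 : ∑ u : A, χ ((u : E) * v) = (Nat.card A : ℂ) * avg A χ v := by
      rw [avg, ← mul_assoc, mul_inv_cancel₀ (cardH_ne_zero A), one_mul]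
    rw [h3, map_mul, map_natCast]
    ring
  rw [classInner, hsum, Finset.sum_congr rfl fun v _ => hinner v, ← Finset.mul_sum,
    ← Finset.mul_sum, ← hcard]
  obtain ⟨k, hk⟩ := hBn
  have hB0 : (Nat.card B : ℂ) ≠ 0 := cardH_ne_zero B
  have hA0 : (Nat.card A : ℂ) ≠ 0 := cardH_ne_zero A
  have heq : ((Nat.card A * Nat.card B : ℕ) : ℂ)⁻¹ * ((Nat.card A : ℂ) * ((n : ℂ) *
      ∑ v : B, ((if (v : E) ∈ S then 1 else 0) * conj (avg A χ v)))) =
      (k : ℂ) * ∑ v : B, ((if (v : E) ∈ S then 1 else 0) * conj (avg A χ v)) := by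
    rw [hk]; push_cast; field_simp
  rw [heq]
  have hint : ∀ x : E, IsIntegral ℤ (avg A χ x) := by
    intro x
    rcases avg_irr hA hχ with h | h
    · rw [h.avg_eq]; exact IsChar.isIntegral (IsIrr.isCharacter hχ) x
    · rw [h]; exact isIntegral_zero
  refine IsIntegral.mul (by exact_mod_cast (isIntegral_algebraMap (x := (k : ℤ)))) ?_
  apply IsIntegral.sum
  intro v _
  split_ifs
  · rw [one_mul]; exact CharInt.isIntegral_conj (hint v)
  · rw [zero_mul]; exact isIntegral_zero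

theorem section_intSpan {G : Type*} [Group G] [Fintype G] (m n : ℕ) (hmn : Nat.card G = m * n)
    (hcop : Nat.Coprime m n) (g : G) (ϑ : G → ℂ)
    (hϑ1 : ∀ u v : G, IsConj v g → Commute u v → (orderOf u).Coprime n → (orderOf v).Coprime m →
      ϑ (u * v) = n)
    (hϑ0 : ∀ u v : G, ¬ IsConj v g → Commute u v → (orderOf u).Coprime n →
      (orderOf v).Coprime m → ϑ (u * v) = 0)
    (hcl : IsClassFunction G ϑ) : IntSpan ϑ := by
  apply Good.intSpan
  refine ⟨hcl, ?_⟩
  intro E _ p hp hE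
  have hnil : Group.IsNilpotent E := elementary_nilpotent hp hE
  refine ⟨fun a b => hcl a b, ?_⟩
  intro χ hχ
  have hdvd : Nat.card E ∣ m * n := hmn ▸ Subgroup.card_subgroup_dvd_card E
  obtain ⟨A, B, hA, hB, hAm, hBn, hmemA, hmemB, hcomm, hcard, hbij⟩ := split hdvd hcop
  refine nilp_inner hdvd hcop {v : E | IsConj (v : G) g} _ ?_ ?_ hχ
  · intro u v hu hv hvS
    have hc := hcomm u ((hmemA u).mpr hu) v ((hmemB v).mpr hv)
    exact hϑ1 u v hvS (congrArg Subtype.val hc) (by rwa [Subgroup.orderOf_coe])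
      (by rwa [Subgroup.orderOf_coe])
  · intro u v hu hv hvS
    have hc := hcomm u ((hmemA u).mpr hu) v ((hmemB v).mpr hv)
    exact hϑ0 u v hvS (congrArg Subtype.val hc) (by rwa [Subgroup.orderOf_coe])
      (by rwa [Subgroup.orderOf_coe])

theorem parts_unique {G : Type*} [Group G] [Finite G] {m n : ℕ} (hmn : Nat.card G ∣ m * n)
    (hcop : m.Coprime n) {u v u' v' : G} (h : u * v = u' * v') (hc : Commute u v)
    (hc' : Commute u' v') (hu : (orderOf u).Coprime n) (hv : (orderOf v).Coprime m)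
    (hu' : (orderOf u').Coprime n) (hv' : (orderOf v').Coprime m) : u = u' ∧ v = v' := by
  -- orders divide
  have hd : ∀ w : G, (orderOf w).Coprime n → orderOf w ∣ m := by
    intro w hw
    exact hw.dvd_of_dvd_mul_right ((orderOf_dvd_natCard w).trans hmn)
  have hd' : ∀ w : G, (orderOf w).Coprime m → orderOf w ∣ n := by
    intro w hw
    exact hw.dvd_of_dvd_mul_left ((orderOf_dvd_natCard w).trans hmn)
  obtain ⟨k, hk1, hk2⟩ := Nat.chineseRemainder hcop 1 0
  have key : ∀ w z : G, Commute w z → (orderOf w).Coprime n → (orderOf z).Coprime m →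
      (w * z) ^ k = w := by
    intro w z hwz hw hz
    rw [hwz.mul_pow]
    have h1 : z ^ k = 1 := by
      rw [← orderOf_dvd_iff_pow_eq_one]
      exact (hd' z hz).trans ((Nat.modEq_zero_iff_dvd).mp hk2)
    have h2 : w ^ k = w := by
      conv_rhs => rw [← pow_one w]
      exact pow_eq_pow_iff_modEq.mpr (hk1.of_dvd (hd w hw))
    rw [h1, h2, mul_one]
  have h3 : u = u' := by rw [← key u v hc hu hv, h, key u' v' hc' hu' hv']
  subst h3
  exact ⟨rfl, mul_left_cancel h⟩

end Cfsg.Agent.H3.PiSection
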