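import Mathlib
import Cfsg.Prelude.Def_Characters
import Cfsg.Agent.H3_PiSection
import Cfsg.Agent.H3_CharQuot
import Cfsg.Agent.H3_PermInd
import Cfsg.Agent.H1_Coprime
import Cfsg.Agent.H25_Elem

/-!
# The Brauer–Suzuki transfer theorem
-/

set_option autoImplicit false

open scoped ComplexConjugate

namespace Cfsg.Agent.H3.BSTransfer

open Cfsg Cfsg.Agent.H3.CharBasic Cfsg.Agent.H3.CharIrr Cfsg.Agent.H3.CharComplete
  Cfsg.Agent.H3.CharMult Cfsg.Agent.H3.CharInd Cfsg.Agent.H3.CharInt
  Cfsg.Agent.H3.NilpSplit Cfsg.Agent.H3.PiSection Cfsg.Agent.H3.CharQuot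

/-- Frobenius: number of elements with order prime to `b`. -/
theorem frob_dvd {C : Type*} [Group C] [Fintype C] {a b : ℕ} (hab : Nat.card C = a * b)
    (hcop : a.Coprime b) : a ∣ Nat.card {u : C // (orderOf u).Coprime b} := by
  classical
  have ha0 : 0 < a := Nat.pos_of_ne_zero (by
    rintro rfl; rw [zero_mul] at hab; exact Nat.card_pos.ne' hab)
  have hb0 : 0 < b := Nat.pos_of_ne_zero (by
    rintro rfl; rw [mul_zero] at hab; exact Nat.card_pos.ne' hab)
  let ϑ : C → ℂ := fun x => if (orderOf x).Coprime b then (b : ℂ) else 0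
  have hI : Cfsg.Agent.H25.Brauer.IntSpan ϑ := by
    apply section_intSpan a b hab hcop 1 ϑ
    · intro u v hv _ hu _
      have : v = 1 := isConj_one_left.mp hv
      rw [this, mul_one]; exact if_pos hu
    · intro u v hv hc hu hv'
      apply if_neg
      intro h
      have h1 : (orderOf u).Coprime (orderOf v) := by
        have h2 : orderOf v ∣ b := hv'.dvd_of_dvd_mul_left (hab ▸ orderOf_dvd_natCard v)
        exact hu.coprime_dvd_right h2
      rw [hc.orderOf_mul_eq_mul_orderOf_of_coprime h1] at h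
      have h2 : (orderOf v).Coprime b := Nat.Coprime.coprime_dvd_left (Dvd.intro_left _ rfl) h
      have h3 : orderOf v ∣ b := hv'.dvd_of_dvd_mul_left (hab ▸ orderOf_dvd_natCard v)
      have h4 : orderOf v = 1 := Nat.Coprime.eq_one_of_dvd h2 h3
      rw [orderOf_eq_one_iff] at h4
      exact hv (isConj_one_left.mpr h4)
    · intro x y
      have h1 : orderOf (y * x * y⁻¹) = orderOf x := by
        have := orderOf_injective (MulAut.conj y).toMonoidHom (MulAut.conj y).injective x
        simpa using this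
      simp only [ϑ, h1]
  have h1 := hI.2 _ (isIrr_one (G := C))
  have h2 : classInner ϑ (fun _ => 1) =
      (((Nat.card {u : C // (orderOf u).Coprime b} : ℚ) / a : ℚ) : ℂ) := by
    rw [classInner]
    simp only [ϑ, map_one, mul_one]
    rw [Finset.sum_ite, Finset.sum_const_zero, add_zero, Finset.sum_const, nsmul_eq_mul,
      ← Fintype.card_subtype, ← Nat.card_eq_fintype_card, hab]
    push_cast
    have : (b : ℂ) ≠ 0 := by exact_mod_cast hb0.ne'
    have : (a : ℂ) ≠ 0 := by exact_mod_cast ha0.ne'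
    field_simp
  rw [h2] at h1
  obtain ⟨k, hk⟩ := exists_int_of_isIntegral h1
  have ha0' : (a : ℚ) ≠ 0 := by exact_mod_cast ha0.ne'
  rw [div_eq_iff ha0'] at hk
  have h3 : (Nat.card {u : C // (orderOf u).Coprime b} : ℤ) = k * a := by exact_mod_cast hk
  have h4 : (a : ℤ) ∣ (Nat.card {u : C // (orderOf u).Coprime b} : ℤ) := ⟨k, by rw [h3]; ring⟩
  exact_mod_cast h4

section Main

variable {G : Type*} [Group G] [Fintype G]

theorem orderOf_conj' (a x : G) : orderOf (a * x * a⁻¹) = orderOf x := by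
  have := orderOf_injective (MulAut.conj a).toMonoidHom (MulAut.conj a).injective x
  simpa using this

/-- membership in the section of `h` -/
def InSec (m n : ℕ) (x h : G) : Prop :=
  ∃ u v : G, x = u * v ∧ Commute u v ∧ (orderOf u).Coprime n ∧ (orderOf v).Coprime m ∧ IsConj v h

theorem exists_parts {m n : ℕ} (hmn : Nat.card G = m * n) (hcop : m.Coprime n) (x : G) :
    ∃ u v : G, x = u * v ∧ Commute u v ∧ (orderOf u).Coprime n ∧ (orderOf v).Coprime m := by
  obtain ⟨k, hk1, hk2⟩ := Nat.chineseRemainder hcop 1 0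
  obtain ⟨l, hl1, hl2⟩ := Nat.chineseRemainder hcop 0 1
  refine ⟨x ^ k, x ^ l, ?_, (Commute.refl x).pow_pow k l, ?_, ?_⟩
  · rw [← pow_add]
    have h1 : k + l ≡ 1 [MOD m * n] := by
      rw [← Nat.modEq_and_modEq_iff_modEq_mul hcop]
      exact ⟨by simpa using hk1.add hl1, by simpa using hk2.add hl2⟩
    conv_lhs => rw [← pow_one x]
    exact (pow_eq_pow_iff_modEq.mpr (h1.of_dvd (hmn ▸ orderOf_dvd_natCard x))).symm
  · have h1 : orderOf (x ^ k) ∣ m := by
      rw [orderOf_dvd_iff_pow_eq_one, ← pow_mul, ← orderOf_dvd_iff_pow_eq_one]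
      refine (orderOf_dvd_natCard x).trans ?_
      rw [hmn, mul_comm m n]
      exact Nat.mul_dvd_mul_right (Nat.modEq_zero_iff_dvd.mp hk2) m
    exact hcop.coprime_dvd_left h1
  · have h1 : orderOf (x ^ l) ∣ n := by
      rw [orderOf_dvd_iff_pow_eq_one, ← pow_mul, ← orderOf_dvd_iff_pow_eq_one]
      refine (orderOf_dvd_natCard x).trans ?_
      rw [hmn]
      exact Nat.mul_dvd_mul_right (Nat.modEq_zero_iff_dvd.mp hl1) n
    exact hcop.symm.coprime_dvd_left h1

/-- Lower bound for the section of an element: `m * n ≤ |Sec(h)| * c` where `c = (|C(h)|, n)`. -/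
theorem sec_lower {m n : ℕ} (hmn : Nat.card G = m * n) (hcop : m.Coprime n) (h : G)
    (hh : (orderOf h).Coprime m) :
    m * n ≤ Nat.card {x : G // InSec m n x h} *
      Nat.gcd (Nat.card (Subgroup.centralizer ({h} : Set G))) n := by
  classical
  -- the number of elements `v` conjugate to `h`
  set C := Subgroup.centralizer ({h} : Set G) with hC
  have hcard : Nat.card C = Nat.gcd (Nat.card C) m * Nat.gcd (Nat.card C) n := by
    rw [← Nat.Coprime.gcd_mul _ hcop, Nat.gcd_eq_left (hmn ▸ Subgroup.card_subgroup_dvd_card C)]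
  have hcop' : (Nat.gcd (Nat.card C) m).Coprime (Nat.gcd (Nat.card C) n) :=
    Nat.Coprime.coprime_dvd_left (Nat.gcd_dvd_right _ _)
      (Nat.Coprime.coprime_dvd_right (Nat.gcd_dvd_right _ _) hcop)
  have := Fintype.ofFinite C
  have hU := frob_dvd hcard hcop'
  have hUpos : 0 < Nat.card {u : C // (orderOf u).Coprime (Nat.gcd (Nat.card C) n)} := by
    have : Nonempty {u : C // (orderOf u).Coprime (Nat.gcd (Nat.card C) n)} :=
      ⟨⟨1, by rw [orderOf_one]; exact Nat.coprime_one_left _⟩⟩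
    exact Nat.card_pos
  have hUle := Nat.le_of_dvd hUpos hU
  -- injection from (conjugates) × U to the section
  let cl := {v : G // IsConj h v}
  have hclcard : Nat.card C * Nat.card cl = Nat.card G := by
    have := card_class_mul h
    rw [← this]
    congr 1
    rw [Nat.card_eq_fintype_card, Fintype.card_subtype]
  choose t ht using fun v : cl => isConj_iff.mp v.2
  let f : cl × {u : C // (orderOf u).Coprime (Nat.gcd (Nat.card C) n)} → {x : G // InSec m n x h} :=
    fun p => ⟨(t p.1 * p.2.1 * (t p.1)⁻¹) * p.1.1, t p.1 * p.2.1 * (t p.1)⁻¹, p.1.1, rfl, by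
      have h1 : ((p.2.1 : C) : G) * h = h * ((p.2.1 : C) : G) :=
        Subgroup.mem_centralizer_singleton_iff.mp p.2.1.2
      have h2 := ht p.1
      change (t p.1 * p.2.1 * (t p.1)⁻¹) * p.1.1 = p.1.1 * (t p.1 * p.2.1 * (t p.1)⁻¹)
      rw [← h2]
      calc (t p.1 * p.2.1 * (t p.1)⁻¹) * (t p.1 * h * (t p.1)⁻¹) =
          t p.1 * (p.2.1 * h) * (t p.1)⁻¹ := by group
        _ = t p.1 * (h * p.2.1) * (t p.1)⁻¹ := by rw [h1]
        _ = _ := by group, by
      rw [orderOf_conj', Subgroup.orderOf_coe]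
      have h1 := p.2.2
      have h2 : Nat.gcd (orderOf p.2.1) n ∣ Nat.gcd (Nat.card C) n :=
        Nat.gcd_dvd_gcd_of_dvd_left _ (orderOf_dvd_natCard _)
      exact Nat.eq_one_of_dvd_coprimes h1 (Nat.gcd_dvd_left _ _) h2, by
      rw [← ht p.1, orderOf_conj']; exact hh, p.1.2.symm⟩
  have hfinj : Function.Injective f := by
    rintro ⟨v, u⟩ ⟨v', u'⟩ he
    have he' := congrArg Subtype.val he
    obtain ⟨u1, v1, hx1, hc1, hu1, hv1, -⟩ := (f (v, u)).2
    have hcomm : ∀ (v : cl) (u : {u : C // (orderOf u).Coprime (Nat.gcd (Nat.card C) n)}),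
        Commute (t v * u.1 * (t v)⁻¹) v.1 := by
      intro v u
      have h1 : ((u.1 : C) : G) * h = h * ((u.1 : C) : G) :=
        Subgroup.mem_centralizer_singleton_iff.mp u.1.2
      have h2 := ht v
      change (t v * u.1 * (t v)⁻¹) * v.1 = v.1 * (t v * u.1 * (t v)⁻¹)
      rw [← h2]
      calc (t v * u.1 * (t v)⁻¹) * (t v * h * (t v)⁻¹) =
          t v * (u.1 * h) * (t v)⁻¹ := by group
        _ = t v * (h * u.1) * (t v)⁻¹ := by rw [h1]
        _ = _ := by group
    have hord : ∀ (v : cl) (u : {u : C // (orderOf u).Coprime (Nat.gcd (Nat.card C) n)}),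
        (orderOf (t v * u.1 * (t v)⁻¹)).Coprime n := by
      intro v u
      rw [orderOf_conj', Subgroup.orderOf_coe]
      have h1 := u.2
      have h2 : Nat.gcd (orderOf u.1) n ∣ Nat.gcd (Nat.card C) n :=
        Nat.gcd_dvd_gcd_of_dvd_left _ (orderOf_dvd_natCard _)
      exact Nat.eq_one_of_dvd_coprimes h1 (Nat.gcd_dvd_left _ _) h2
    have hordv : ∀ v : cl, (orderOf v.1).Coprime m := by
      intro v; rw [← ht v, orderOf_conj']; exact hh
    obtain ⟨h3, h4⟩ := parts_unique (dvd_of_eq hmn) hcop he' (hcomm v u) (hcomm v' u')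
      (hord v u) (hordv v) (hord v' u') (hordv v')
    have h5 : v = v' := Subtype.ext h4
    subst h5
    have h6 : ((u.1 : C) : G) = u'.1 := by
      have := mul_right_cancel h3
      exact mul_left_cancel this
    exact Prod.ext rfl (Subtype.ext (Subtype.ext h6))
  have h7 := Nat.card_le_card_of_injective f hfinj
  rw [Nat.card_prod] at h7
  calc m * n = Nat.card C * Nat.card cl := by rw [hclcard, hmn]
    _ = Nat.gcd (Nat.card C) m * Nat.gcd (Nat.card C) n * Nat.card cl := by rw [← hcard]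
    _ ≤ Nat.card {u : C // (orderOf u).Coprime (Nat.gcd (Nat.card C) n)} *
        Nat.gcd (Nat.card C) n * Nat.card cl := by gcongr
    _ = (Nat.card cl * Nat.card {u : C // (orderOf u).Coprime (Nat.gcd (Nat.card C) n)}) *
        Nat.gcd (Nat.card C) n := by ring
    _ ≤ _ := by gcongr

/-- centralizers in `H` are large -/
theorem cent_bound {H : Subgroup G} {m n : ℕ} (hH : Nat.card H = n) (hmn : Nat.card G = m * n)
    (hcop : m.Coprime n)
    (hfus : ∀ x ∈ H, ∀ y ∈ H, IsConj x y → ∃ h ∈ H, h * x * h⁻¹ = y)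
    (helem : ∀ (E : Subgroup G) (p : ℕ), p.Prime → IsElementary p E →
      Nat.card E ∣ Nat.card H → ∃ g : G, E.map (MulAut.conj g).toMonoidHom ≤ H) (h : H) :
    Nat.gcd (Nat.card (Subgroup.centralizer ({(h : G)} : Set G))) n ∣
      Nat.card (Subgroup.centralizer ({h} : Set H)) := by
  classical
  rw [Nat.dvd_iff_prime_pow_dvd_dvd]
  intro p k hp hk
  have := Fact.mk hp
  rcases Nat.eq_zero_or_pos k with rfl | hkpos
  · simp
  have hpn : p ∣ n := (dvd_pow_self p hkpos.ne').trans (hk.trans (Nat.gcd_dvd_right _ _))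
  have hpm : ¬ p ∣ m := fun h => hp.one_lt.ne' (Nat.eq_one_of_dvd_coprimes hcop h hpn)
  obtain ⟨C, hC⟩ : ∃ C : Subgroup G, C = Subgroup.centralizer ({(h : G)} : Set G) := ⟨_, rfl⟩
  rw [← hC] at hk
  obtain ⟨P⟩ : Nonempty (Sylow p C) := inferInstance
  have hkP : p ^ k ∣ Nat.card P := P.pow_dvd_card_of_pow_dvd_card (hk.trans (Nat.gcd_dvd_left _ _))
  refine hkP.trans ?_
  -- parts of `h`
  obtain ⟨x, s, hxs, hcomm, hpx, l, hl⟩ := Cfsg.Agent.H25.Brauer.exists_p_parts p (h : G)
  have hxp : (orderOf x).Coprime p := ((Nat.Prime.coprime_iff_not_dvd hp).mpr hpx).symm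
  have hcopxs : (orderOf x).Coprime (orderOf s) := by rw [hl]; exact hxp.pow_right l
  obtain ⟨j, hj⟩ := Cfsg.Agent.H3.PermInd.part_pow hcomm hcopxs
  rw [hxs] at hj
  have hcentx : ∀ y ∈ C, y * x = x * y := by
    intro y hy
    rw [hC, Subgroup.mem_centralizer_singleton_iff] at hy
    rw [← hj]
    exact (Commute.pow_right hy j).eq
  have hcents : ∀ y ∈ C, y * s = s * y := by
    intro y hy
    have h1 := hcentx y hy
    rw [hC, Subgroup.mem_centralizer_singleton_iff, ← hxs] at hy
    have h2 : x * (y * s) = x * (s * y) := by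
      calc x * (y * s) = (x * y) * s := by group
        _ = (y * x) * s := by rw [h1]
        _ = y * (x * s) := by group
        _ = (x * s) * y := hy
        _ = _ := by group
    exact mul_left_cancel h2
  have hsC : s ∈ C := by
    rw [hC, Subgroup.mem_centralizer_singleton_iff, ← hxs]
    calc s * (x * s) = (s * x) * s := by group
      _ = (x * s) * s := by rw [hcomm.eq]
  have hsP : (⟨s, hsC⟩ : C) ∈ (P : Subgroup C) := by
    have hn : (Subgroup.zpowers (⟨s, hsC⟩ : C)).Normal := ⟨fun y hy g => by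
      obtain ⟨i, rfl⟩ := Subgroup.mem_zpowers_iff.mp hy
      have h1 : Commute g (⟨s, hsC⟩ : C) := Subtype.ext (hcents g g.2)
      rw [(h1.zpow_right i).eq, mul_inv_cancel_right]; exact hy⟩
    have hpg : IsPGroup p (Subgroup.zpowers (⟨s, hsC⟩ : C)) := by
      apply IsPGroup.of_card (n := l)
      rw [Nat.card_zpowers, Subgroup.orderOf_mk, hl]
    have h2 := P.isPGroup'.to_sup_of_normal_right hpg
    have h3 := P.is_maximal' h2 le_sup_left
    have h4 : (⟨s, hsC⟩ : C) ∈ (P : Subgroup C) ⊔ Subgroup.zpowers (⟨s, hsC⟩ : C) :=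
      (le_sup_right : Subgroup.zpowers (⟨s, hsC⟩ : C) ≤ _) (Subgroup.mem_zpowers _)
    rwa [h3] at h4
  -- the elementary subgroup
  obtain ⟨P', hP'⟩ : ∃ P' : Subgroup G, P' = (P : Subgroup C).map C.subtype := ⟨_, rfl⟩
  have hP'C : P' ≤ C := by rw [hP']; rintro _ ⟨y, _, rfl⟩; exact y.2
  have hP'card : Nat.card P' = Nat.card P := by
    rw [hP']; exact Subgroup.card_map_of_injective C.subtype_injective
  obtain ⟨a, ha⟩ := (IsPGroup.iff_card (p := p)).mp P.isPGroup'
  have hsP' : s ∈ P' := by rw [hP']; exact ⟨⟨s, hsC⟩, hsP, rfl⟩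
  have hnormP : P' ≤ Subgroup.normalizer (Subgroup.zpowers x : Set G) := by
    intro y hy
    apply Cfsg.Agent.H3.PermInd.conj_zpowers_mem
    have : y⁻¹ * x * y = x := by rw [mul_assoc, ← hcentx y (hP'C hy), inv_mul_cancel_left]
    rw [this]; exact Subgroup.mem_zpowers x
  have hinf : P' ⊓ Subgroup.zpowers x = ⊥ := by
    rw [← disjoint_iff]
    apply Subgroup.disjoint_of_coprime_natCard
    rw [hP'card, ha, Nat.card_zpowers]
    exact (hxp.pow_right a).symm
  have hEcard := Cfsg.Agent.H1.Coprime.card_sup_of_le_normalizer hnormP hinf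
  obtain ⟨E, hE⟩ : ∃ E : Subgroup G, E = P' ⊔ Subgroup.zpowers x := ⟨_, rfl⟩
  rw [← hE, hP'card, Nat.card_zpowers, ha] at hEcard
  have hxE : x ∈ E := hE ▸ (le_sup_right : Subgroup.zpowers x ≤ _) (Subgroup.mem_zpowers x)
  have hP'E : P' ≤ E := hE ▸ le_sup_left
  have hEC : E ≤ Subgroup.centralizer ({x} : Set G) := by
    rw [hE, sup_le_iff]
    constructor
    · intro y hy
      rw [Subgroup.mem_centralizer_singleton_iff]
      exact hcentx y (hP'C hy)
    · rw [Subgroup.zpowers_le, Subgroup.mem_centralizer_singleton_iff]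
  have hEel : IsElementary p E := by
    refine ⟨⟨x, hxE⟩, ?_, ?_, a, ?_⟩
    · rw [Subgroup.mem_center_iff]
      intro y
      exact Subtype.ext (Subgroup.mem_centralizer_singleton_iff.mp (hEC y.2))
    · rw [Subgroup.orderOf_mk]; exact hxp
    · have h1 := (Subgroup.zpowers (⟨x, hxE⟩ : E)).card_mul_index
      rw [Nat.card_zpowers, Subgroup.orderOf_mk, hEcard, mul_comm (p ^ a)] at h1
      exact Nat.eq_of_mul_eq_mul_left (orderOf_pos x) h1
  have hEdvd : Nat.card E ∣ Nat.card H := by
    rw [hEcard, hH]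
    apply Nat.Coprime.mul_dvd_of_dvd_of_dvd
    · exact (hxp.pow_right a).symm
    · have h1 : p ^ a ∣ m * n := by
        rw [← hmn, ← ha, ← hP'card]; exact Subgroup.card_subgroup_dvd_card P'
      exact (Nat.Coprime.pow_left a ((Nat.Prime.coprime_iff_not_dvd hp).mpr hpm)).dvd_of_dvd_mul_left h1
    · rw [← hj]
      refine (orderOf_pow_dvd j).trans ?_
      rw [← hH, Subgroup.orderOf_coe]; exact orderOf_dvd_natCard h
  obtain ⟨g, hg⟩ := helem E p hp hEel hEdvd
  have hmem : ∀ y ∈ E, g * y * g⁻¹ ∈ H := fun y hy => hg ⟨y, hy, rfl⟩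
  have hhE : (h : G) ∈ E := by rw [← hxs]; exact E.mul_mem hxE (hP'E hsP')
  obtain ⟨t, htH, ht⟩ := hfus (g * h * g⁻¹) (hmem h hhE) h h.2
    (isConj_iff.mpr ⟨g⁻¹, by group⟩)
  have hmem' : ∀ y ∈ E, (t * g) * y * (t * g)⁻¹ ∈ H := by
    intro y hy
    have : (t * g) * y * (t * g)⁻¹ = t * (g * y * g⁻¹) * t⁻¹ := by group
    rw [this]; exact H.mul_mem (H.mul_mem htH (hmem y hy)) (H.inv_mem htH)
  have hth : (t * g) * h * (t * g)⁻¹ = h := by
    have : (t * g) * h * (t * g)⁻¹ = t * (g * h * g⁻¹) * t⁻¹ := by group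
    rw [this, ht]
  let f : P' →* Subgroup.centralizer ({h} : Set H) :=
    { toFun := fun y => ⟨⟨(t * g) * y * (t * g)⁻¹, hmem' y (hP'E y.2)⟩, by
        rw [Subgroup.mem_centralizer_singleton_iff]
        apply Subtype.ext
        have h1 : (y : G) * h = h * y := by
          have := hP'C y.2
          rw [hC, Subgroup.mem_centralizer_singleton_iff] at this
          exact this
        change (t * g) * y * (t * g)⁻¹ * h = h * ((t * g) * y * (t * g)⁻¹)
        calc (t * g) * y * (t * g)⁻¹ * h = (t * g) * y * (t * g)⁻¹ * ((t * g) * h * (t * g)⁻¹) := by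
              rw [hth]
          _ = (t * g) * (y * h) * (t * g)⁻¹ := by group
          _ = (t * g) * (h * y) * (t * g)⁻¹ := by rw [h1]
          _ = ((t * g) * h * (t * g)⁻¹) * ((t * g) * y * (t * g)⁻¹) := by group
          _ = _ := by rw [hth]⟩
      map_one' := by apply Subtype.ext; apply Subtype.ext; simp
      map_mul' := by
        intro y z
        apply Subtype.ext; apply Subtype.ext
        change (t * g) * ((y : G) * z) * (t * g)⁻¹ = (t * g) * y * (t * g)⁻¹ * ((t * g) * z * (t * g)⁻¹)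
        group }
  have hf : Function.Injective f := by
    intro y z hyz
    have h1 : (t * g) * (y : G) * (t * g)⁻¹ = (t * g) * z * (t * g)⁻¹ :=
      congrArg (fun w : Subgroup.centralizer ({h} : Set H) => ((w : H) : G)) hyz
    exact Subtype.ext (mul_left_cancel (mul_right_cancel h1))
  rw [← hP'card]
  exact Subgroup.card_dvd_of_injective f hf

section Trans

variable {H : Subgroup G} [Fintype H] {m n : ℕ} (hH : Nat.card H = n) (hmn : Nat.card G = m * n)
    (hcop : m.Coprime n)
    (hfus : ∀ x ∈ H, ∀ y ∈ H, IsConj x y → ∃ h ∈ H, h * x * h⁻¹ = y)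
    (helem : ∀ (E : Subgroup G) (p : ℕ), p.Prime → IsElementary p E →
      Nat.card E ∣ Nat.card H → ∃ g : G, E.map (MulAut.conj g).toMonoidHom ≤ H)

include hH hmn hcop helem in
theorem exists_sec (x : G) : ∃ h : H, InSec m n x h := by
  obtain ⟨u, v, rfl, hc, hu, hv⟩ := exists_parts hmn hcop x
  have := Fact.mk Nat.prime_two
  obtain ⟨g, hg⟩ := helem (Subgroup.zpowers v) 2 Nat.prime_two
    Cfsg.Agent.H25.Brauer.elementary_of_cyclic (by
      rw [Nat.card_zpowers, hH]
      exact hv.dvd_of_dvd_mul_left (hmn ▸ orderOf_dvd_natCard v))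
  exact ⟨⟨g * v * g⁻¹, hg ⟨v, Subgroup.mem_zpowers v, rfl⟩⟩, u, v, rfl, hc, hu, hv,
    isConj_iff.mpr ⟨g, rfl⟩⟩

include hmn hcop hfus in
theorem sec_unique {x : G} {h h' : H} (h1 : InSec m n x h) (h2 : InSec m n x h') :
    IsConj h h' := by
  obtain ⟨u, v, hx, hc, hu, hv, hvh⟩ := h1
  obtain ⟨u', v', hx', hc', hu', hv', hvh'⟩ := h2
  obtain ⟨-, h3⟩ := parts_unique (dvd_of_eq hmn) hcop (hx.symm.trans hx') hc hc' hu hv hu' hv'
  subst h3
  obtain ⟨t, ht, ht'⟩ := hfus h h.2 h' h'.2 (hvh.symm.trans hvh')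
  exact isConj_iff.mpr ⟨⟨t, ht⟩, Subtype.ext ht'⟩

/-- the class of the `π`-part -/
noncomputable def kap (x : G) : ConjClasses H :=
  ConjClasses.mk (exists_sec hH hmn hcop helem x).choose

include hfus in
theorem kap_eq_iff {x : G} {h : H} : kap hH hmn hcop helem x = ConjClasses.mk h ↔
    InSec m n x h := by
  have h0 := (exists_sec hH hmn hcop helem x).choose_spec
  rw [kap, ConjClasses.mk_eq_mk_iff_isConj]
  constructor
  · intro h1
    obtain ⟨u, v, hx, hc, hu, hv, hvh⟩ := h0
    obtain ⟨c, hc'⟩ := isConj_iff.mp h1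
    refine ⟨u, v, hx, hc, hu, hv, hvh.trans (isConj_iff.mpr ⟨c, ?_⟩)⟩
    exact congrArg Subtype.val hc'
  · intro h1
    exact sec_unique hmn hcop hfus h0 h1

include hfus in
theorem fiber_ge (C : ConjClasses H) :
    m * Nat.card {h : H // ConjClasses.mk h = C} ≤
      Nat.card {x : G // kap hH hmn hcop helem x = C} := by
  classical
  obtain ⟨h, rfl⟩ := ConjClasses.exists_rep C
  have h1 : Nat.card {x : G // kap hH hmn hcop helem x = ConjClasses.mk h} =
      Nat.card {x : G // InSec m n x h} := by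
    apply Nat.card_congr
    apply Equiv.subtypeEquivRight
    intro x
    exact kap_eq_iff hH hmn hcop hfus helem
  have hho : (orderOf (h : G)).Coprime m := by
    rw [Subgroup.orderOf_coe]
    exact hcop.symm.coprime_dvd_left (hH ▸ orderOf_dvd_natCard h)
  have h2 := sec_lower hmn hcop (h : G) hho
  have h3 := cent_bound hH hmn hcop hfus helem h
  have h4 := Nat.le_of_dvd Nat.card_pos h3
  have h5 : Nat.card (Subgroup.centralizer ({h} : Set H)) *
      Nat.card {h' : H // ConjClasses.mk h' = ConjClasses.mk h} = n := by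
    rw [← hH, ← card_class_mul h]
    congr 1
    rw [Nat.card_eq_fintype_card, Fintype.card_subtype]
    congr 1
    ext h'
    rw [Finset.mem_filter, Finset.mem_filter, ConjClasses.mk_eq_mk_iff_isConj, isConj_comm]
  change m * Nat.card {h' : H // ConjClasses.mk h' = ConjClasses.mk h} ≤
    Nat.card {x : G // kap hH hmn hcop helem x = ConjClasses.mk h}
  rw [h1]
  have hpos : 0 < Nat.card (Subgroup.centralizer ({h} : Set H)) := Nat.card_pos
  apply Nat.le_of_mul_le_mul_right _ hpos
  calc m * Nat.card {h' : H // ConjClasses.mk h' = ConjClasses.mk h} *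
        Nat.card (Subgroup.centralizer ({h} : Set H)) = m * n := by rw [← h5]; ring
    _ ≤ _ := h2
    _ ≤ _ := Nat.mul_le_mul_left _ h4

include hfus in
theorem fiber_eq (C : ConjClasses H) :
    m * Nat.card {h : H // ConjClasses.mk h = C} =
      Nat.card {x : G // kap hH hmn hcop helem x = C} := by
  classical
  have := Fintype.ofFinite (ConjClasses H)
  have h1 : ∑ C : ConjClasses H, Nat.card {x : G // kap hH hmn hcop helem x = C} = Nat.card G := by
    rw [← Nat.card_sigma]
    exact Nat.card_congr (Equiv.sigmaFiberEquiv _)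
  have h2 : ∑ C : ConjClasses H, Nat.card {h : H // ConjClasses.mk h = C} = Nat.card H := by
    rw [← Nat.card_sigma]
    exact Nat.card_congr (Equiv.sigmaFiberEquiv _)
  have h3 : ∑ C : ConjClasses H, m * Nat.card {h : H // ConjClasses.mk h = C} =
      ∑ C : ConjClasses H, Nat.card {x : G // kap hH hmn hcop helem x = C} := by
    rw [← Finset.mul_sum, h1, h2, hmn, hH]
  exact (Finset.sum_eq_sum_iff_of_le (fun C _ => fiber_ge hH hmn hcop hfus helem C)).mp h3 C
    (Finset.mem_univ C)

include hfus in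
theorem sum_kap (F : ConjClasses H → ℂ) :
    ∑ x : G, F (kap hH hmn hcop helem x) = (m : ℂ) * ∑ h : H, F (ConjClasses.mk h) := by
  classical
  have := Fintype.ofFinite (ConjClasses H)
  rw [← Finset.sum_fiberwise (s := (Finset.univ : Finset G)) (g := kap hH hmn hcop helem),
    ← Finset.sum_fiberwise (s := (Finset.univ : Finset H)) (g := ConjClasses.mk), Finset.mul_sum]
  refine Finset.sum_congr rfl fun C _ => ?_
  rw [Finset.sum_congr rfl (g := fun _ => F C) (fun x hx => by rw [(Finset.mem_filter.mp hx).2]),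
    Finset.sum_const, Finset.sum_congr rfl (g := fun _ => F C)
      (fun x hx => by rw [(Finset.mem_filter.mp hx).2]), Finset.sum_const, nsmul_eq_mul,
    nsmul_eq_mul, ← mul_assoc]
  congr 1
  have h1 := fiber_eq hH hmn hcop hfus helem C
  rw [Nat.card_eq_fintype_card, Fintype.card_subtype, Nat.card_eq_fintype_card,
    Fintype.card_subtype] at h1
  rw [← h1]; push_cast; rfl

/-- the extended class function -/
noncomputable def star (φ : H → ℂ) (x : G) : ℂ := φ (Quotient.out (kap hH hmn hcop helem x))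

include hfus in
theorem star_eq {φ : H → ℂ} (hφ : IsClassFunction H φ) {x : G} {h : H} (hx : InSec m n x h) :
    star hH hmn hcop helem φ x = φ h := by
  rw [star, (kap_eq_iff hH hmn hcop hfus helem).mpr hx]
  have h1 : ConjClasses.mk (Quotient.out (ConjClasses.mk h)) = ConjClasses.mk h := Quotient.out_eq _
  rw [ConjClasses.mk_eq_mk_iff_isConj] at h1
  obtain ⟨c, hc⟩ := isConj_iff.mp h1
  conv_rhs => rw [← hc]
  exact (hφ _ c).symm

include hfus in
theorem star_isClass {φ : H → ℂ} (hφ : IsClassFunction H φ) :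
    IsClassFunction G (star hH hmn hcop helem φ) := by
  intro x g
  obtain ⟨h, hh⟩ := exists_sec hH hmn hcop helem x
  rw [star_eq hH hmn hcop hfus helem hφ hh]
  apply star_eq hH hmn hcop hfus helem hφ
  obtain ⟨u, v, rfl, hc, hu, hv, hvh⟩ := hh
  refine ⟨g * u * g⁻¹, g * v * g⁻¹, by group, ?_, by rwa [orderOf_conj'], by rwa [orderOf_conj'],
    (isConj_iff.mpr ⟨g⁻¹, by group⟩ : IsConj (g * v * g⁻¹) v).trans hvh⟩
  change (g * u * g⁻¹) * (g * v * g⁻¹) = (g * v * g⁻¹) * (g * u * g⁻¹)
  calc (g * u * g⁻¹) * (g * v * g⁻¹) = g * (u * v) * g⁻¹ := by group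
    _ = g * (v * u) * g⁻¹ := by rw [hc.eq]
    _ = _ := by group

include hfus in
theorem star_isGen {φ : H → ℂ} (hφ : IsCharacter H φ) :
    IsGeneralizedCharacter G (star hH hmn hcop helem φ) := by
  classical
  apply Cfsg.Agent.H25.Brauer.isGen_of_elementary
    (star_isClass hH hmn hcop hfus helem (IsChar.isClass hφ))
  intro E p hp hE
  have := Fact.mk hp
  have hnil := Cfsg.Agent.H3.NilpSplit.elementary_nilpotent hp hE
  have hdvd : Nat.card E ∣ m * n := hmn ▸ Subgroup.card_subgroup_dvd_card E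
  obtain ⟨A, B, hA, hB, hAm, hBn, hmemA, hmemB, hcomm, hcard, hbij⟩ := split hdvd hcop
  have hBel : IsElementary p (B.map E.subtype) :=
    Cfsg.Agent.H25.Elem.elementary_equiv (B.equivMapOfInjective E.subtype E.subtype_injective)
      (Cfsg.Agent.H25.Elem.elementary_subgroup hE B)
  obtain ⟨g, hg⟩ := helem (B.map E.subtype) p hp hBel (by
    rw [Subgroup.card_map_of_injective E.subtype_injective, hH]; exact hBn)
  obtain ⟨N, hN1, hN2⟩ := Nat.chineseRemainder hcop 0 1
  have hpow : ∀ a ∈ A, ∀ b ∈ B, (a * b) ^ N = b := by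
    intro a ha b hb
    rw [(hcomm a ha b hb).mul_pow]
    have h1 : a ^ N = 1 := by
      rw [← orderOf_dvd_iff_pow_eq_one]
      have h2 : orderOf a ∣ m := ((hmemA a).mp ha).dvd_of_dvd_mul_right
        ((orderOf_dvd_natCard a).trans hdvd)
      exact h2.trans ((Nat.modEq_zero_iff_dvd).mp hN1)
    have h2 : b ^ N = b := by
      have h3 : orderOf b ∣ n := ((hmemB b).mp hb).dvd_of_dvd_mul_left
        ((orderOf_dvd_natCard b).trans hdvd)
      conv_rhs => rw [← pow_one b]
      exact pow_eq_pow_iff_modEq.mpr (hN2.of_dvd h3)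
    rw [h1, h2, one_mul]
  have hdec : ∀ w : E, ∃ a ∈ A, ∃ b ∈ B, w = a * b := by
    intro w
    obtain ⟨⟨a, b⟩, hab⟩ := hbij.2 w
    exact ⟨a, a.2, b, b.2, hab.symm⟩
  have hmemH : ∀ w : E, g * ((w ^ N : E) : G) * g⁻¹ ∈ H := by
    intro w
    obtain ⟨a, ha, b, hb, rfl⟩ := hdec w
    rw [hpow a ha b hb]
    exact hg ⟨(b : G), ⟨b, hb, rfl⟩, rfl⟩
  let ψ : E →* H := MonoidHom.mk' (fun w => ⟨g * ((w ^ N : E) : G) * g⁻¹, hmemH w⟩) (by
    intro w w'
    obtain ⟨a, ha, b, hb, rfl⟩ := hdec w
    obtain ⟨a', ha', b', hb', rfl⟩ := hdec w'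
    have h1 : a * b * (a' * b') = (a * a') * (b * b') := by
      calc a * b * (a' * b') = a * (b * a') * b' := by group
        _ = a * (a' * b) * b' := by rw [(hcomm a' ha' b hb).eq]
        _ = _ := by group
    apply Subtype.ext
    change g * (((a * b * (a' * b')) ^ N : E) : G) * g⁻¹ =
      (g * (((a * b) ^ N : E) : G) * g⁻¹) * (g * (((a' * b') ^ N : E) : G) * g⁻¹)
    rw [h1, hpow _ (A.mul_mem ha ha') _ (B.mul_mem hb hb'), hpow a ha b hb, hpow a' ha' b' hb']
    rw [Subgroup.coe_mul]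
    group)
  have heq : (fun e : E => star hH hmn hcop helem φ e) = fun e => φ (ψ e) := by
    ext w
    apply star_eq hH hmn hcop hfus helem (IsChar.isClass hφ)
    obtain ⟨a, ha, b, hb, rfl⟩ := hdec w
    refine ⟨a, b, rfl, congrArg Subtype.val (hcomm a ha b hb), ?_, ?_, ?_⟩
    · rw [Subgroup.orderOf_coe]; exact (hmemA a).mp ha
    · rw [Subgroup.orderOf_coe]; exact (hmemB b).mp hb
    · refine isConj_iff.mpr ⟨g, ?_⟩
      change g * (b : G) * g⁻¹ = g * (((a * b) ^ N : E) : G) * g⁻¹
      rw [hpow a ha b hb]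
  rw [heq]
  exact IsGen.of_char (IsChar.comp hφ ψ)

include hfus in
theorem star_isIrr {φ : H → ℂ} (hφ : IsIrrCharacter H φ) :
    IsIrrCharacter G (star hH hmn hcop helem φ) := by
  have h1 : classInner (star hH hmn hcop helem φ) (star hH hmn hcop helem φ) = 1 := by
    rw [← ci_irr_self hφ, classInner, classInner]
    have h2 := sum_kap hH hmn hcop hfus helem (fun C => φ (Quotient.out C) * conj (φ (Quotient.out C)))
    have h3 : ∑ h : H, φ (Quotient.out (ConjClasses.mk h)) * conj (φ (Quotient.out (ConjClasses.mk h))) =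
        ∑ h : H, φ h * conj (φ h) := by
      refine Finset.sum_congr rfl fun h _ => ?_
      have h1 : ConjClasses.mk (Quotient.out (ConjClasses.mk h)) = ConjClasses.mk h :=
        Quotient.out_eq _
      rw [ConjClasses.mk_eq_mk_iff_isConj] at h1
      obtain ⟨c, hc⟩ := isConj_iff.mp h1
      have h4 : φ (Quotient.out (ConjClasses.mk h)) = φ h := by
        conv_rhs => rw [← hc]
        exact (IsIrr.isClass hφ _ c).symm
      rw [h4]
    beta_reduce at h2
    rw [h3] at h2
    change (Nat.card G : ℂ)⁻¹ * ∑ x : G, φ (Quotient.out (kap hH hmn hcop helem x)) *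
      conj (φ (Quotient.out (kap hH hmn hcop helem x))) = _
    rw [h2, hmn, hH]
    have hm0 : (m : ℂ) ≠ 0 := by
      intro h
      have : m = 0 := by exact_mod_cast h
      rw [this, zero_mul] at hmn
      exact Nat.card_pos.ne' hmn
    have hn0 : (n : ℂ) ≠ 0 := by rw [← hH]; exact cardH_ne_zero H
    push_cast
    field_simp
  rcases isGen_norm_one (star_isGen hH hmn hcop hfus helem (IsIrr.isCharacter hφ)) h1 with h2 | h2
  · exact h2
  · exfalso
    obtain ⟨a, ha, ha'⟩ := IsIrr.one_eq_nat h2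
    obtain ⟨b, hb, hb'⟩ := IsIrr.one_eq_nat hφ
    have h3 : star hH hmn hcop helem φ 1 = φ 1 := by
      apply star_eq hH hmn hcop hfus helem (IsIrr.isClass hφ)
      exact ⟨1, 1, by simp, Commute.one_left 1, by simp, by simp, IsConj.refl _⟩
    rw [Pi.neg_apply, h3, hb'] at ha'
    have : (a : ℂ) + b = 0 := by rw [← ha']; ring
    have h4 : a + b = 0 := by exact_mod_cast this
    omega

include hH hmn hcop hfus helem in
theorem transfer : ∃ K : Subgroup G, K.Normal ∧ K ⊔ H = ⊤ ∧ K ⊓ H = ⊥ := by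
  classical
  have hirr := fun φ : IrrCharacter H => star_isIrr hH hmn hcop hfus helem φ.2
  let K : Subgroup G := ⨅ φ : IrrCharacter H, chKer _ (IsIrr.isCharacter (hirr φ))
  have hKmem : ∀ x : G, x ∈ K ↔ kap hH hmn hcop helem x = ConjClasses.mk 1 := by
    intro x
    rw [Subgroup.mem_iInf]
    obtain ⟨h, hh⟩ := exists_sec hH hmn hcop helem x
    have h1 : ∀ φ : IrrCharacter H, star hH hmn hcop helem (φ : H → ℂ) 1 = (φ : H → ℂ) 1 := by
      intro φ
      apply star_eq hH hmn hcop hfus helem (IsIrr.isClass φ.2)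
      exact ⟨1, 1, by simp, Commute.one_left 1, by simp, by simp, IsConj.refl _⟩
    have h2 : ∀ φ : IrrCharacter H, x ∈ chKer _ (IsIrr.isCharacter (hirr φ)) ↔
        (φ : H → ℂ) h = (φ : H → ℂ) 1 := by
      intro φ
      rw [mem_chKer, h1 φ, star_eq hH hmn hcop hfus helem (IsIrr.isClass φ.2) hh]
    constructor
    · intro h3
      have h4 : h = 1 := by
        by_contra hne
        have := Fintype.ofFinite (IrrCharacter H)
        have h5 := sum_one_mul h
        rw [if_neg hne, Finset.sum_congr rfl fun φ _ => by rw [(h2 φ).mp (h3 φ), ← sq],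
          sum_sq] at h5
        exact (Nat.cast_ne_zero.mpr (Nat.card_pos (α := H)).ne') h5
      rw [kap_eq_iff hH hmn hcop hfus helem, ← h4]
      exact hh
    · intro h3 φ
      rw [kap_eq_iff hH hmn hcop hfus helem] at h3
      have h4 := sec_unique hmn hcop hfus hh h3
      rw [h2, isConj_one_left.mp h4]
  have hKn : K.Normal := by
    refine ⟨fun x hx g => ?_⟩
    rw [Subgroup.mem_iInf] at hx ⊢
    exact fun φ => (chKer_normal (IsIrr.isCharacter (hirr φ))).conj_mem x (hx φ) g
  have hKcard : Nat.card K = m := by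
    have h1 := fiber_eq hH hmn hcop hfus helem (ConjClasses.mk 1)
    have h2 : Nat.card {h : H // ConjClasses.mk h = ConjClasses.mk 1} = 1 := by
      rw [Nat.card_eq_one_iff_unique]
      refine ⟨⟨fun a b => ?_⟩, ⟨1, rfl⟩⟩
      have ha := isConj_one_left.mp (ConjClasses.mk_eq_mk_iff_isConj.mp a.2)
      have hb := isConj_one_left.mp (ConjClasses.mk_eq_mk_iff_isConj.mp b.2)
      exact Subtype.ext (ha.trans hb.symm)
    rw [h2, mul_one] at h1
    rw [h1]
    exact Nat.card_congr (Equiv.subtypeEquivRight hKmem)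
  have hinf : K ⊓ H = ⊥ := by
    rw [← disjoint_iff]
    apply Subgroup.disjoint_of_coprime_natCard
    rw [hKcard, hH]; exact hcop
  refine ⟨K, hKn, ?_, hinf⟩
  have h1 := Subgroup.isComplement'_of_coprime (H := K) (K := H) (by rw [hKcard, hH, hmn])
    (by rw [hKcard, hH]; exact hcop)
  exact h1.sup_eq_top

end Trans

end Main

end Cfsg.Agent.H3.BSTransfer
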