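import Mathlib
import Cfsg.Prelude.Def_Solvable
import Cfsg.Prelude.Def_OddOrderLocal
import Cfsg.Agent.S0877
import Cfsg.Agent.H1_Fixed
import Cfsg.Agent.H1_Frob2
import Cfsg.Agent.H1_Schmidt
import Cfsg.Agent.H1_Coprime2

/-! TI subgroups with a normal complement in the normalizer. -/

set_option autoImplicit false

open Subgroup Cfsg
open scoped Pointwise commutatorElement

universe u

namespace Cfsg.Agent.H24.TIHall

open Cfsg.Agent.H1.Basic Cfsg.Agent.H1.Coprime

variable {G : Type u} [Group G]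

structure Dat (H K : Subgroup G) : Prop where
  ti : ∀ g : G, g ∉ normalizer (H : Set G) → ∀ x ∈ H, g * x * g⁻¹ ∈ H → x = 1
  dec : ∀ y ∈ normalizer (H : Set G), ∃ k ∈ K, ∃ h ∈ H, y = k * h
  comm : ∀ k ∈ K, ∀ h ∈ H, k * h = h * k
  cop : (Nat.card K).Coprime (Nat.card H)

variable {H K : Subgroup G}

theorem Dat.le (d : Dat H K) : K ≤ normalizer (H : Set G) := by
  intro k hk
  rw [mem_normalizer_iff]
  intro h
  constructor
  · intro hh
    rw [d.comm k hk h hh]; simpa using hh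
  · intro hh
    have h1 := d.comm k hk _ hh
    have h2 : h = k * h * k⁻¹ := by
      have h3 : k * (k * h * k⁻¹) = k * h := by rw [h1]; group
      exact (mul_left_cancel h3).symm
    rw [h2]; exact hh

theorem pow_pow_one {G : Type*} [Group G] {x : G} {a b : ℕ} (ha : x ^ a = 1) (hb : x ^ b = 1) (hab : a.Coprime b) : x = 1 := by
  have h1 : orderOf x ∣ Nat.gcd a b := Nat.dvd_gcd (orderOf_dvd_of_pow_eq_one ha) (orderOf_dvd_of_pow_eq_one hb)
  rw [hab, Nat.dvd_one] at h1
  exact orderOf_eq_one_iff.1 h1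

theorem pow_card_mem {G : Type*} [Group G] {H : Subgroup G} {x : G} (hx : x ∈ H) : x ^ Nat.card H = 1 :=
  congrArg Subtype.val (pow_card_eq_one' (x := (⟨x, hx⟩ : H)))

theorem Dat.mem (d : Dat H K) {y : G} (hy : y ∈ normalizer (H : Set G)) (hyp : y ^ Nat.card H = 1) : y ∈ H := by
  obtain ⟨k, hk, h, hh, rfl⟩ := d.dec y hy
  have hc : Commute k h := d.comm k hk h hh
  rw [hc.mul_pow, pow_card_mem hh, mul_one] at hyp
  have hk1 : k = 1 := pow_pow_one (pow_card_mem hk) hyp d.cop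
  rw [hk1, one_mul]; exact hh

theorem Dat.norm (d : Dat H K) {h g : G} (hh : h ∈ H) (h1 : h ≠ 1) (hg : g * h * g⁻¹ ∈ H) : g ∈ normalizer (H : Set G) := by
  by_contra hcon
  exact h1 (d.ti g hcon h hh hg)

theorem Dat.cent (d : Dat H K) {h y : G} (hh : h ∈ H) (h1 : h ≠ 1) (hy : y * h = h * y) : y ∈ normalizer (H : Set G) := by
  apply d.norm hh h1
  rw [hy]; simpa using hh

theorem Dat.hall [Finite G] (d : Dat H K) (hidx : (Nat.card H).Coprime (H.subgroupOf (normalizer (H : Set G))).index) :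
    (Nat.card H).Coprime H.index := by
  apply Nat.coprime_of_dvd
  intro p hp hpH hpi
  haveI : Fact p.Prime := ⟨hp⟩
  obtain ⟨P⟩ : Nonempty (Sylow p H) := inferInstance
  obtain ⟨v, hv⟩ : ∃ v, v = (Nat.card H).factorization p := ⟨_, rfl⟩
  have hPc : Nat.card ((P : Subgroup H).map H.subtype) = p ^ v := by rw [card_map_sylow, hv]
  have hdvd : p ^ (v + 1) ∣ Nat.card G := by
    rw [← H.card_mul_index, pow_succ]
    exact mul_dvd_mul (hv ▸ Nat.ordProj_dvd _ _) hpi
  have h1 := Sylow.prime_dvd_card_quotient_normalizer hdvd hPc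
  have hle : normalizer (((P : Subgroup H).map H.subtype : Subgroup G) : Set G) ≤ normalizer (H : Set G) := by
    intro g hg
    have hne : (P : Subgroup H).map H.subtype ≠ ⊥ := by
      intro h2
      rw [h2, card_bot] at hPc
      have hv0 : v ≠ 0 := by
        rw [hv]
        exact (hp.factorization_pos_of_dvd Nat.card_pos.ne' hpH).ne'
      have := Nat.one_lt_pow hv0 hp.one_lt
      omega
    obtain ⟨x, hx, hx1⟩ := (Subgroup.bot_or_exists_ne_one _).resolve_left hne
    exact d.norm (map_subtype_le _ hx) hx1 (map_subtype_le _ ((mem_normalizer_iff.1 hg x).1 hx))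
  have h2 : p ^ (v + 1) ∣ Nat.card (normalizer (((P : Subgroup H).map H.subtype : Subgroup G) : Set G)) := by
    rw [card_eq_card_quotient_mul_card_subgroup (((P : Subgroup H).map H.subtype).comap (normalizer (((P : Subgroup H).map H.subtype : Subgroup G) : Set G)).subtype)]
    have h3 : Nat.card (((P : Subgroup H).map H.subtype).comap (normalizer (((P : Subgroup H).map H.subtype : Subgroup G) : Set G)).subtype) = p ^ v := by
      rw [← hPc]
      exact card_subgroupOf le_normalizer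
    rw [h3, pow_succ, mul_comm]
    exact mul_dvd_mul h1 dvd_rfl
  have h3 := h2.trans (card_dvd_of_le hle)
  have h4 : Nat.card (normalizer (H : Set G)) = Nat.card H * (H.subgroupOf (normalizer (H : Set G))).index := by
    rw [← (H.subgroupOf (normalizer (H : Set G))).card_mul_index, card_subgroupOf le_normalizer]
  rw [h4] at h3
  have hcop : Nat.Coprime (p ^ (v + 1)) (H.subgroupOf (normalizer (H : Set G))).index :=
    Nat.Coprime.pow_left _ (Nat.Coprime.coprime_dvd_left hpH hidx)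
  have h5 := hcop.dvd_of_dvd_mul_right h3
  rw [Nat.Prime.pow_dvd_iff_le_factorization hp Nat.card_pos.ne', ← hv] at h5
  omega

theorem Dat.exists_conj [Finite G] (d : Dat H K) (hall : (Nat.card H).Coprime H.index) {x : G} (hx1 : x ≠ 1)
    (hx : x ^ Nat.card H = 1) : ∃ g : G, x ∈ MulAut.conj g • H := by
  have ho : orderOf x ≠ 1 := fun h => hx1 (orderOf_eq_one_iff.1 h)
  obtain ⟨q, hq, hqo⟩ := Nat.exists_prime_and_dvd ho
  haveI : Fact q.Prime := ⟨hq⟩
  obtain ⟨m, hm⟩ := hqo
  have hxo : orderOf (x ^ m) = q := by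
    have hm0 : m ≠ 0 := by rintro rfl; rw [mul_zero] at hm; exact (orderOf_pos x).ne' hm
    rw [orderOf_pow, hm, Nat.gcd_eq_right (dvd_mul_left m q), Nat.mul_div_cancel _ (Nat.pos_of_ne_zero hm0)]
  have hqH : q ∣ Nat.card H := by
    have h1 : q ∣ orderOf x := ⟨m, hm⟩
    exact h1.trans (orderOf_dvd_of_pow_eq_one hx)
  obtain ⟨P⟩ : Nonempty (Sylow q H) := inferInstance
  have hPc : Nat.card ((P : Subgroup H).map H.subtype) = q ^ (Nat.card G).factorization q := by
    rw [card_map_sylow]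
    congr 1
    rw [← H.card_mul_index, Nat.factorization_mul Nat.card_pos.ne' index_ne_zero_of_finite, Finsupp.add_apply]
    have : H.index.factorization q = 0 := Nat.factorization_eq_zero_of_not_dvd (fun h => by
      have h1 := Nat.dvd_gcd hqH h
      rw [hall] at h1
      exact hq.one_lt.ne' (Nat.dvd_one.1 h1))
    omega
  let Q : Sylow q G := Sylow.ofCard _ hPc
  have hQ : (Q : Subgroup G) = (P : Subgroup H).map H.subtype := Sylow.coe_ofCard _ _
  have hzp : IsPGroup q (zpowers (x ^ m)) := by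
    apply IsPGroup.of_card (n := 1)
    rw [Nat.card_zpowers, hxo, pow_one]
  obtain ⟨R, hR⟩ := hzp.exists_le_sylow
  obtain ⟨g, hg⟩ := MulAction.exists_smul_eq G Q R
  refine ⟨g, ?_⟩
  have h1 : x ^ m ∈ MulAut.conj g • H := by
    have h2 : x ^ m ∈ (R : Subgroup G) := hR (mem_zpowers _)
    rw [← hg] at h2
    have h3 : (g • Q : Sylow q G) ≤ MulAut.conj g • H := by
      rw [Sylow.coe_subgroup_smul, hQ]
      exact conj_le_conj.2 (map_subtype_le _)
    exact h3 h2
  rw [mem_conj] at h1 ⊢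
  have hne : g⁻¹ * x ^ m * g ≠ 1 := by
    intro h2
    have h3 : x ^ m = 1 := by
      have : x ^ m = g * (g⁻¹ * x ^ m * g) * g⁻¹ := by group
      rw [this, h2]; group
    rw [h3, orderOf_one] at hxo
    exact hq.one_lt.ne hxo
  apply d.mem
  · apply d.cent h1 hne
    have hc : x * x ^ m = x ^ m * x := ((Commute.refl x).pow_right m).eq
    calc g⁻¹ * x * g * (g⁻¹ * x ^ m * g) = g⁻¹ * (x * x ^ m) * g := by group
      _ = g⁻¹ * (x ^ m * x) * g := by rw [hc]
      _ = _ := by group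
  · have h2 : (g⁻¹ * x * g) ^ Nat.card H = g⁻¹ * x ^ Nat.card H * g := by
      have := conj_pow (a := g⁻¹) (b := x) (i := Nat.card H)
      rw [inv_inv] at this
      exact this
    rw [h2, hx]; group

theorem Dat.complement [Finite G] (d : Dat H K) (hall : (Nat.card H).Coprime H.index) :
    ∃ M : Subgroup G, M.Normal ∧ M ⊔ H = ⊤ ∧ M ⊓ H = ⊥ := by
  apply Cfsg.Agent.S0877.result H hall
  · intro x hx y hy hxy
    obtain ⟨g, hg⟩ := isConj_iff.1 hxy
    by_cases hx1 : x = 1
    · refine ⟨1, one_mem _, ?_⟩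
      rw [← hg, hx1]; group
    · obtain ⟨k, hk, h, hh, rfl⟩ := d.dec g (d.norm hx hx1 (hg ▸ hy))
      refine ⟨h, hh, ?_⟩
      rw [← hg]
      have h1 : h * x * h⁻¹ ∈ H := mul_mem (mul_mem hh hx) (inv_mem hh)
      have h2 := d.comm k hk _ h1
      calc h * x * h⁻¹ = (h * x * h⁻¹) * k * k⁻¹ := by group
        _ = k * (h * x * h⁻¹) * k⁻¹ := by rw [← h2]
        _ = _ := by group
  · intro E p hp hE hEc
    by_cases hEb : E = ⊥
    · refine ⟨1, ?_⟩
      rw [hEb, Subgroup.map_bot]; exact bot_le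
    -- a central element
    have hz : ∃ z ∈ E, z ≠ 1 ∧ ∀ e ∈ E, e * z = z * e := by
      obtain ⟨x, hx, hxp, k, hk⟩ := hE
      by_cases hx1 : x = 1
      · haveI : Fact p.Prime := ⟨hp⟩
        rw [hx1, zpowers_one_eq_bot, index_bot] at hk
        haveI : Nontrivial E := (nontrivial_iff_ne_bot E).2 hEb
        haveI := (IsPGroup.of_card hk).center_nontrivial
        obtain ⟨z, hz⟩ := exists_ne (1 : center E)
        refine ⟨z, z.1.2, fun h => hz (Subtype.ext (Subtype.ext h)), fun e he => ?_⟩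
        exact congrArg Subtype.val (mem_center_iff.1 z.2 ⟨e, he⟩)
      · refine ⟨x, x.2, fun h => hx1 (Subtype.ext h), fun e he => ?_⟩
        exact congrArg Subtype.val (mem_center_iff.1 hx ⟨e, he⟩)
    obtain ⟨z, hz, hz1, hzc⟩ := hz
    have hpow : ∀ e ∈ E, e ^ Nat.card H = 1 := by
      intro e he
      obtain ⟨c, hc⟩ := hEc
      rw [hc, pow_mul, pow_card_mem he, one_pow]
    obtain ⟨g, hg⟩ := d.exists_conj hall hz1 (hpow z hz)
    rw [mem_conj] at hg
    refine ⟨g⁻¹, ?_⟩
    rintro _ ⟨e, he, rfl⟩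
    have hcj : (MulAut.conj g⁻¹).toMonoidHom e = g⁻¹ * e * g := by simp
    rw [hcj]
    have hne : g⁻¹ * z * g ≠ 1 := by
      intro h2
      apply hz1
      have : z = g * (g⁻¹ * z * g) * g⁻¹ := by group
      rw [this, h2]; group
    apply d.mem
    · apply d.cent hg hne
      calc g⁻¹ * e * g * (g⁻¹ * z * g) = g⁻¹ * (e * z) * g := by group
        _ = g⁻¹ * (z * e) * g := by rw [hzc e he]
        _ = _ := by group
    · have h2 : (g⁻¹ * e * g) ^ Nat.card H = g⁻¹ * e ^ Nat.card H * g := by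
        have := conj_pow (a := g⁻¹) (b := e) (i := Nat.card H)
        rw [inv_inv] at this
        exact this
      rw [h2, hpow e he]; group

/-- any subgroup of the same order as `H` is conjugate to `H` -/
theorem Dat.conj_of_card [Finite G] (d : Dat H K) (hall : (Nat.card H).Coprime H.index) (hH : H ≠ ⊥) (B : Subgroup G)
    (hB : Nat.card B = Nat.card H) : ∃ g : G, MulAut.conj g • H = B := by
  by_contra hcon
  push Not at hcon
  have hBne : B ≠ ⊥ := by
    rintro rfl
    rw [card_bot] at hB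
    exact hH (card_eq_one.1 hB.symm)
  have hpow : ∀ b ∈ B, b ^ Nat.card H = 1 := fun b hb => by rw [← hB]; exact pow_card_mem hb
  -- equality of conjugates
  have hEq : ∀ a b x : G, x ≠ 1 → x ∈ MulAut.conj a • H → x ∈ MulAut.conj b • H → MulAut.conj a • H = MulAut.conj b • H := by
    intro a b x hx1 ha hb
    rw [mem_conj] at ha hb
    have h1 : b⁻¹ * a ∈ normalizer (H : Set G) := by
      apply d.norm ha
      · intro h2
        apply hx1
        have : x = a * (a⁻¹ * x * a) * a⁻¹ := by group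
        rw [this, h2]; group
      · have : b⁻¹ * a * (a⁻¹ * x * a) * (b⁻¹ * a)⁻¹ = b⁻¹ * x * b := by group
        rw [this]; exact hb
    rw [← conj_eq_iff_mem_normalizer, ← conj_conj] at h1
    have h2 := conj_inv_eq h1
    rw [inv_inv] at h2
    exact h2.symm
  have hfrob : ∀ g x : G, x ≠ 1 → x ∈ B → x ∈ MulAut.conj g • H → IsFrobeniusComplement ((MulAut.conj g • H).subgroupOf B) := by
    intro g x hx1 hxB hxg
    refine ⟨?_, ?_, ?_⟩
    · intro h1
      have h2 : (⟨x, hxB⟩ : B) ∈ (MulAut.conj g • H).subgroupOf B := mem_subgroupOf.2 hxg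
      rw [h1, mem_bot] at h2
      exact hx1 (congrArg Subtype.val h2)
    · intro h1
      rw [subgroupOf_eq_top] at h1
      exact hcon g (eq_of_le_of_card_ge h1 (by rw [card_conj, hB])).symm
    · intro y hy
      rw [eq_bot_iff]
      intro z hz
      rw [mem_bot]
      by_contra hz1
      obtain ⟨h1, h2⟩ := mem_inf.1 hz
      rw [mem_conj, mem_subgroupOf] at h2
      rw [mem_subgroupOf] at h1
      have hz1' : (z : G) ≠ 1 := fun h => hz1 (Subtype.ext h)
      have h3 : (z : G) ∈ MulAut.conj ((y : G) * g) • H := by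
        rw [mem_conj]
        rw [mem_conj] at h2
        have : ((y : G) * g)⁻¹ * z * (y * g) = g⁻¹ * ((y⁻¹ * z * y : B) : G) * g := by
          simp only [coe_mul, coe_inv]; group
        rw [this]; exact h2
      have h4 := hEq _ _ z hz1' h1 h3
      apply hy
      rw [mem_subgroupOf, mem_conj]
      -- g⁻¹ y g normalizes H
      have h5 : g⁻¹ * y * g ∈ normalizer (H : Set G) := by
        rw [← conj_eq_iff_mem_normalizer]
        have h6 : MulAut.conj (g⁻¹ * (y * g)) • H = H := by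
          rw [← conj_conj, ← h4, conj_conj, inv_mul_cancel, conj_one]
        rwa [← mul_assoc] at h6
      apply d.mem h5
      have h2 : (g⁻¹ * (y : G) * g) ^ Nat.card H = g⁻¹ * (y : G) ^ Nat.card H * g := by
        have := conj_pow (a := g⁻¹) (b := (y : G)) (i := Nat.card H)
        rw [inv_inv] at this
        exact this
      rw [h2, hpow y y.2]; group
  obtain ⟨x, hx, hx1⟩ := (Subgroup.bot_or_exists_ne_one B).resolve_left hBne
  obtain ⟨g, hg⟩ := d.exists_conj hall hx1 (hpow x hx)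
  have hA := hfrob g x hx1 hx hg
  have hcard := H1.Frob.card_conjUnion hA
  have hidx : 1 < ((MulAut.conj g • H).subgroupOf B).index := by
    have h1 : ((MulAut.conj g • H).subgroupOf B).index ≠ 1 := fun h => hA.2.1 (index_eq_one.1 h)
    have h2 : ((MulAut.conj g • H).subgroupOf B).index ≠ 0 := index_ne_zero_of_finite
    omega
  obtain ⟨y, hy1, hy⟩ : ∃ y : B, y ≠ 1 ∧ y ∉ H1.Frob.conjUnion ((MulAut.conj g • H).subgroupOf B) := by
    by_contra hc
    push Not at hc
    have h1 : ({1}ᶜ : Set B) ⊆ H1.Frob.conjUnion ((MulAut.conj g • H).subgroupOf B) := fun y hy => hc y hy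
    have h2 := Set.ncard_le_ncard h1 (Set.toFinite _)
    have h4 := Set.ncard_add_ncard_compl ({1} : Set B)
    rw [Set.ncard_singleton] at h4
    have h5 : Nat.card (H1.Frob.conjUnion ((MulAut.conj g • H).subgroupOf B)) = (H1.Frob.conjUnion ((MulAut.conj g • H).subgroupOf B)).ncard := rfl
    omega
  have hy1' : (y : G) ≠ 1 := fun h => hy1 (Subtype.ext h)
  obtain ⟨g', hg'⟩ := d.exists_conj hall hy1' (hpow y y.2)
  have hA' := hfrob g' y hy1' y.2 hg'
  obtain ⟨z, ⟨hz1, b, hb⟩, ⟨-, b', hb'⟩⟩ := H1.Frob2.exists_mem_both hA hA'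
  apply hy
  have hz1' : (z : G) ≠ 1 := fun h => hz1 (Subtype.ext h)
  have e1 : ∀ (c : B) (a w : G) (hw : w ∈ B), (⟨w, hw⟩ : B) ∈ MulAut.conj c • (MulAut.conj a • H).subgroupOf B ↔ w ∈ MulAut.conj ((c : G) * a) • H := by
    intro c a w hw
    rw [mem_conj, mem_subgroupOf, mem_conj, mem_conj]
    have : a⁻¹ * ((c⁻¹ * ⟨w, hw⟩ * c : B) : G) * a = ((c : G) * a)⁻¹ * w * (c * a) := by
      simp only [coe_mul, coe_inv]; group
    rw [this]
  have k1 := (e1 b g z z.2).1 hb
  have k2 := (e1 b' g' z z.2).1 hb'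
  have k3 := hEq _ _ z hz1' k1 k2
  refine ⟨hy1, b'⁻¹ * b, (e1 (b'⁻¹ * b) g y y.2).2 ?_⟩
  have k4 : MulAut.conj (((b'⁻¹ * b : B) : G) * g) • H = MulAut.conj g' • H := by
    have : ((b'⁻¹ * b : B) : G) * g = (b' : G)⁻¹ * (b * g) := by simp only [coe_mul, coe_inv]; group
    rw [this, ← conj_conj, k3, conj_conj]
    congr 2
    group
  rw [k4]
  exact hg'

section part2

variable (M : Subgroup G) [hMn : M.Normal]

theorem factor (hMH : M ⊔ H = ⊤) (g : G) : ∃ m ∈ M, ∃ h ∈ H, g = m * h := by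
  have hg : g ∈ M ⊔ H := by rw [hMH]; trivial
  rw [mem_sup_of_normal_left] at hg
  obtain ⟨m, hm, h, hh, e⟩ := hg
  exact ⟨m, hm, h, hh, e.symm⟩

theorem Dat.le_M (d : Dat H K) (hMH : M ⊔ H = ⊤) (hinf : M ⊓ H = ⊥) : K ≤ M := by
  intro k hk
  obtain ⟨m, hm, h, hh, rfl⟩ := factor M hMH k
  have h1 : QuotientGroup.mk' M (m * h) = QuotientGroup.mk' M h := by
    rw [map_mul]
    have : QuotientGroup.mk' M m = 1 := (QuotientGroup.eq_one_iff m).2 hm
    rw [this, one_mul]
  have h2 : h ^ Nat.card K ∈ M := by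
    apply (QuotientGroup.eq_one_iff _).1
    have h3 : QuotientGroup.mk' M (h ^ Nat.card K) = 1 := by
      rw [map_pow, ← h1, ← map_pow, pow_card_mem hk, map_one]
    exact h3
  have h4 : h ^ Nat.card K ∈ M ⊓ H := ⟨h2, pow_mem hh _⟩
  rw [hinf, mem_bot] at h4
  have h5 : h = 1 := pow_pow_one h4 (pow_card_mem hh) d.cop
  rw [h5, mul_one]; exact hm

theorem Dat.cent_M (d : Dat H K) (hMH : M ⊔ H = ⊤) (hinf : M ⊓ H = ⊥) {h x : G} (hh : h ∈ H) (h1 : h ≠ 1) (hx : x ∈ M)
    (hc : x * h = h * x) : x ∈ K := by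
  obtain ⟨k, hk, h', hh', rfl⟩ := d.dec x (d.cent hh h1 hc)
  have h2 : h' ∈ M ⊓ H := by
    refine ⟨?_, hh'⟩
    have := mul_mem (inv_mem (d.le_M M hMH hinf hk)) hx
    rwa [inv_mul_cancel_left] at this
  rw [hinf, mem_bot] at h2
  rw [h2, mul_one]; exact hk

theorem Dat.not_le (d : Dat H K) (hMH : M ⊔ H = ⊤) (hn : ¬ H.Normal) : ¬ M ≤ K := by
  intro hMK
  apply hn
  constructor
  intro x hx g
  obtain ⟨m, hm, h, hh, rfl⟩ := factor M hMH g
  have h1 : h * x * h⁻¹ ∈ H := mul_mem (mul_mem hh hx) (inv_mem hh)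
  have h2 := d.comm m (hMK hm) _ h1
  have h3 : m * h * x * (m * h)⁻¹ = h * x * h⁻¹ := by
    calc m * h * x * (m * h)⁻¹ = m * (h * x * h⁻¹) * m⁻¹ := by group
      _ = (h * x * h⁻¹) * m * m⁻¹ := by rw [h2]
      _ = _ := by group
  rw [h3]; exact h1

theorem card_M [Finite G] (hMH : M ⊔ H = ⊤) (hinf : M ⊓ H = ⊥) : Nat.card M = H.index ∧ M.index = Nat.card H := by
  have h1 : M.IsComplement' H := isComplement'_of_disjoint_and_mul_eq_univ (disjoint_iff.2 hinf) (by
    ext g
    constructor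
    · intro _; trivial
    · intro _
      obtain ⟨m, hm, h, hh, rfl⟩ := factor M hMH g
      exact Set.mul_mem_mul hm hh)
  exact ⟨h1.index_eq_card.symm, h1.symm.index_eq_card⟩

theorem Dat.inv_sylow [Finite G] (d : Dat H K) (hall : (Nat.card H).Coprime H.index) (hH : H ≠ ⊥) (hMH : M ⊔ H = ⊤)
    (hinf : M ⊓ H = ⊥) (p : ℕ) [hp : Fact p.Prime] :
    ∃ S ≤ M, Nat.card S = p ^ (Nat.card M).factorization p ∧ H ≤ normalizer (S : Set G) := by
  obtain ⟨S₀⟩ : Nonempty (Sylow p M) := inferInstance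
  obtain ⟨S, hS⟩ : ∃ S, S = (S₀ : Subgroup M).map M.subtype := ⟨_, rfl⟩
  have hSM : S ≤ M := hS ▸ map_subtype_le _
  have hSc : Nat.card S = p ^ (Nat.card M).factorization p := by rw [hS]; exact card_map_sylow S₀
  have hFr := Sylow.normalizer_sup_eq_top S₀
  rw [← hS] at hFr
  obtain ⟨N, hN⟩ : ∃ N, N = normalizer (S : Set G) := ⟨_, rfl⟩
  rw [← hN] at hFr
  obtain ⟨hc1, hc2⟩ := card_M M hMH hinf
  have hrel : (M ⊓ N).relIndex N = Nat.card H := by
    rw [inf_relIndex_right, ← relIndex_sup_of_le_normalizer (H := N) (K := M) (by rw [normalizer_eq_top]; exact le_top), hFr,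
      relIndex_top_right, hc2]
  obtain ⟨B, hBN, hBc, -, -⟩ := sz_exists (K := M ⊓ N) (L := N) inf_le_right (by
    intro y hy
    rw [← conj_eq_iff_mem_normalizer]
    ext z
    rw [mem_conj, mem_inf, mem_inf]
    constructor
    · rintro ⟨h1, h2⟩
      refine ⟨?_, ?_⟩
      · have := hMn.conj_mem _ h1 y
        simpa [mul_assoc] using this
      · have := mul_mem (mul_mem hy h2) (inv_mem hy)
        simpa [mul_assoc] using this
    · rintro ⟨h1, h2⟩
      refine ⟨?_, mul_mem (mul_mem (inv_mem hy) h2) hy⟩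
      have := hMn.conj_mem _ h1 y⁻¹
      simpa [mul_assoc] using this) (by
    rw [hrel]
    apply Nat.Coprime.coprime_dvd_left (card_dvd_of_le (inf_le_left : M ⊓ N ≤ M))
    rw [hc1]; exact hall.symm)
  rw [hrel] at hBc
  obtain ⟨g, hg⟩ := d.conj_of_card hall hH B hBc
  refine ⟨MulAut.conj g⁻¹ • S, ?_, by rw [card_conj, hSc], ?_⟩
  · have := (conj_le_conj (g := g⁻¹)).2 hSM
    rwa [conj_of_normal g⁻¹ M] at this
  · intro h hh
    have h1 : g * h * g⁻¹ ∈ B := by rw [← hg]; exact conj_mem_conj.2 hh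
    have h2 := hBN h1
    rw [hN, ← conj_eq_iff_mem_normalizer] at h2
    rw [← conj_eq_iff_mem_normalizer, conj_conj]
    have h3 : h * g⁻¹ = g⁻¹ * (g * h * g⁻¹) := by group
    rw [h3, ← conj_conj, h2]

theorem Dat.frob [Finite G] (d : Dat H K) (hall : (Nat.card H).Coprime H.index) (hn : ¬ H.Normal) (hMH : M ⊔ H = ⊤)
    (hinf : M ⊓ H = ⊥) :
    ∃ (F : Type u) (_ : Group F) (_ : Finite F) (C : Subgroup F), Cfsg.IsFrobeniusComplement C ∧ Nonempty (H ≃* C) := by
  have hH : H ≠ ⊥ := by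
    rintro rfl
    exact hn inferInstance
  obtain ⟨hc1, hc2⟩ := card_M M hMH hinf
  have hKM := d.le_M M hMH hinf
  obtain ⟨p, hp, S, hSM, hSc, hSn, hSK⟩ : ∃ p, p.Prime ∧ ∃ S ≤ M, Nat.card S = p ^ (Nat.card M).factorization p ∧
      H ≤ normalizer (S : Set G) ∧ ¬ S ≤ K := by
    by_contra hcon
    push Not at hcon
    apply d.not_le M hMH hn
    have h1 : Nat.card M ∣ Nat.card K := by
      rw [← Nat.factorization_le_iff_dvd Nat.card_pos.ne' Nat.card_pos.ne']
      intro q
      by_cases hq : q.Prime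
      · haveI : Fact q.Prime := ⟨hq⟩
        obtain ⟨S, hSM, hSc, hSn⟩ := d.inv_sylow M hall hH hMH hinf q
        have h2 := hcon q hq S hSM hSc hSn
        rw [← Nat.Prime.pow_dvd_iff_le_factorization hq Nat.card_pos.ne', ← hSc]
        exact card_dvd_of_le h2
      · rw [Nat.factorization_eq_zero_of_not_prime _ hq]
        exact Nat.zero_le _
    rw [eq_of_le_of_card_ge hKM (Nat.le_of_dvd Nat.card_pos h1)]
  haveI : Fact p.Prime := ⟨hp⟩
  have hSp : IsPGroup p S := IsPGroup.of_card hSc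
  obtain ⟨D, hD⟩ : ∃ D, D = S ⊓ K := ⟨_, rfl⟩
  have hDS : D < S := by
    rw [hD]
    exact lt_of_le_of_ne inf_le_left (fun h => hSK (inf_eq_left.1 h))
  obtain ⟨T, hT⟩ : ∃ T, T = S ⊓ normalizer (D : Set G) := ⟨_, rfl⟩
  have hDT : D < T := hT ▸ H1.Schmidt.lt_inf_normalizer hDS hSp.isNilpotent
  have hTS : T ≤ S := hT ▸ inf_le_left
  have hTD : T ≤ normalizer (D : Set G) := hT ▸ inf_le_right
  have hDK : D ≤ K := hD ▸ inf_le_right
  have hHD : H ≤ normalizer (D : Set G) := by
    intro h hh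
    rw [mem_normalizer_iff]
    intro x
    constructor
    · intro hx
      rw [← d.comm x (hDK hx) h hh]; simpa using hx
    · intro hx
      have h1 := d.comm _ (hDK hx) h hh
      have h2 : x = h * x * h⁻¹ := by
        have h3 : h * (h * x * h⁻¹) = h * x := by rw [← h1]; group
        exact (mul_left_cancel h3).symm
      rw [h2]; exact hx
  have hHT : H ≤ normalizer (T : Set G) := by
    intro h hh
    rw [← conj_eq_iff_mem_normalizer]
    have e1 := conj_eq_iff_mem_normalizer.2 (hSn hh)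
    have e2 := conj_eq_iff_mem_normalizer.2 (hHD hh)
    apply eq_of_le_of_card_ge _ (by rw [card_conj])
    intro x hx
    rw [mem_conj] at hx
    rw [hT]
    refine ⟨?_, ?_⟩
    · have h5 : x ∈ MulAut.conj h • S := mem_conj.2 (hTS hx)
      rw [e1] at h5
      exact h5
    · have h3 := hTD hx
      have h4 := mul_mem (mul_mem (hHD hh) h3) (inv_mem (hHD hh))
      simpa [mul_assoc] using h4
  obtain ⟨J, hJ⟩ : ∃ J, J = T ⊔ H := ⟨_, rfl⟩
  have hTJ : T ≤ J := hJ ▸ le_sup_left
  have hHJ : H ≤ J := hJ ▸ le_sup_right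
  have hDJ : D ≤ J := hDT.le.trans hTJ
  haveI hDn : (D.subgroupOf J).Normal := by
    rw [normal_subgroupOf_iff_le_normalizer hDJ, hJ]
    exact sup_le hTD hHD
  haveI hTn : (T.subgroupOf J).Normal := by
    rw [normal_subgroupOf_iff_le_normalizer hTJ, hJ]
    exact sup_le le_normalizer hHT
  obtain ⟨φ, hφ⟩ : ∃ φ, φ = QuotientGroup.mk' (D.subgroupOf J) := ⟨_, rfl⟩
  have hφs : Function.Surjective φ := by rw [hφ]; exact QuotientGroup.mk'_surjective _
  have hφ1 : ∀ x : J, φ x = 1 ↔ (x : G) ∈ D := by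
    intro x
    rw [hφ, QuotientGroup.mk'_apply, QuotientGroup.eq_one_iff, mem_subgroupOf]
  have hDH : ∀ x ∈ D, x ∈ H → x = 1 := by
    intro x hx hxH
    have h1 : x ∈ M ⊓ H := ⟨hKM (hDK hx), hxH⟩
    rwa [hinf, mem_bot] at h1
  have hTH : ∀ x ∈ T, x ∈ H → x = 1 := by
    intro x hx hxH
    have h1 : x ∈ M ⊓ H := ⟨hSM (hTS hx), hxH⟩
    rwa [hinf, mem_bot] at h1
  let f : H →* (J ⧸ D.subgroupOf J) := φ.comp (inclusion hHJ)
  have hfinj : Function.Injective f := by
    rw [← MonoidHom.ker_eq_bot_iff, eq_bot_iff]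
    intro x hx
    rw [mem_bot]
    apply Subtype.ext
    exact hDH _ ((hφ1 _).1 hx) x.2
  refine ⟨J ⧸ D.subgroupOf J, inferInstance, inferInstance, f.range, ?_, ⟨MonoidHom.ofInjective hfinj⟩⟩
  haveI hVn : ((T.subgroupOf J).map φ).Normal := hTn.map _ hφs
  have hVmem : ∀ y, y ∈ (T.subgroupOf J).map φ ↔ ∃ t : J, (t : G) ∈ T ∧ φ t = y := by
    intro y
    constructor
    · rintro ⟨t, ht, rfl⟩
      exact ⟨t, ht, rfl⟩
    · rintro ⟨t, ht, rfl⟩
      exact ⟨t, ht, rfl⟩
  have hφT : ∀ t x : J, (t : G) ∈ T → φ t = φ x → (x : G) ∈ T := by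
    intro t x ht hx
    have h1 : φ (t⁻¹ * x) = 1 := by rw [map_mul, map_inv, hx, inv_mul_cancel]
    have h2 := (hφ1 _).1 h1
    have h3 := mul_mem ht (hDT.le h2)
    simpa using h3
  have hcompl : IsComplement' ((T.subgroupOf J).map φ) f.range := by
    apply isComplement'_of_disjoint_and_mul_eq_univ
    · rw [disjoint_iff, eq_bot_iff]
      rintro y ⟨h1, ⟨h, rfl⟩⟩
      obtain ⟨t, ht, hty⟩ := (hVmem _).1 h1
      have h2 : ((inclusion hHJ h : J) : G) ∈ T := hφT t _ ht hty
      have h3 : (h : G) = 1 := hTH _ h2 h.2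
      have h4 : h = 1 := Subtype.ext h3
      rw [h4, map_one]; exact one_mem _
    · ext y
      constructor
      · intro _; trivial
      · intro _
        obtain ⟨x, rfl⟩ := hφs y
        have hx : (x : G) ∈ H ⊔ T := by
          have := x.2
          rw [sup_comm]
          exact hJ.le this
        rw [← SetLike.mem_coe, coe_mul_of_left_le_normalizer_right H T hHT] at hx
        obtain ⟨h, hh, t, ht, hht⟩ := Set.mem_mul.1 hx
        have h1 : x = ⟨h * t * h⁻¹, hTJ ((mem_normalizer_iff.1 (hHT hh) t).1 ht)⟩ * inclusion hHJ ⟨h, hh⟩ := by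
          apply Subtype.ext
          simp [← hht]
        rw [h1, map_mul]
        exact Set.mul_mem_mul ((hVmem _).2 ⟨_, (mem_normalizer_iff.1 (hHT hh) t).1 ht, rfl⟩) ⟨⟨h, hh⟩, rfl⟩
  rw [H1.Fixed.isFrobeniusComplement_iff _ _ hcompl]
  · rintro _ ⟨h, rfl⟩ h1
    rw [eq_bot_iff]
    rintro y ⟨hy1, hy2⟩
    obtain ⟨t, ht, rfl⟩ := (hVmem _).1 hy1
    have hy2' : φ t ∈ centralizer ({f h} : Set _) := hy2
    rw [mem_centralizer_singleton_iff] at hy2'
    have hh1 : (h : G) ≠ 1 := by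
      intro h2
      apply h1
      have : h = 1 := Subtype.ext h2
      rw [this, map_one]
    have hfix : (h : G) * t * (h : G)⁻¹ * (t : G)⁻¹ ∈ D := by
      have h3 : φ (inclusion hHJ h * t * (inclusion hHJ h)⁻¹ * t⁻¹) = 1 := by
        rw [map_mul, map_mul, map_mul, map_inv, map_inv]
        change f h * φ t * (f h)⁻¹ * (φ t)⁻¹ = 1
        rw [← hy2']; group
      have h4 := (hφ1 _).1 h3
      simpa using h4
    have hfix' : ∀ a ∈ zpowers (h : G), a * t * a⁻¹ * (t : G)⁻¹ ∈ D := by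
      intro a ha
      have hle : zpowers (h : G) ≤ H := zpowers_le.2 h.2
      have haH := hle ha
      -- work in the quotient
      obtain ⟨k, hk⟩ := mem_zpowers_iff.1 ha
      have h3 : Commute (f h) (φ t) := hy2'.symm
      have h4 := h3.zpow_left k
      have h5 : φ (inclusion hHJ ⟨a, haH⟩ * t * (inclusion hHJ ⟨a, haH⟩)⁻¹ * t⁻¹) = 1 := by
        rw [map_mul, map_mul, map_mul, map_inv, map_inv]
        have h6 : φ (inclusion hHJ ⟨a, haH⟩) = (f h) ^ k := by
          have h8 : (⟨a, haH⟩ : H) = h ^ k := Subtype.ext hk.symm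
          rw [← map_zpow, ← h8]
          rfl
        rw [h6, h4.eq]; group
      have h7 := (hφ1 _).1 h5
      simpa using h7
    have hcopT : (Nat.card (zpowers (h : G))).Coprime (Nat.card T) := by
      apply Nat.Coprime.coprime_dvd_left (card_dvd_of_le (zpowers_le.2 h.2))
      apply Nat.Coprime.coprime_dvd_right (card_dvd_of_le (hTS.trans hSM))
      rw [hc1]; exact hall
    obtain ⟨c, ⟨hc, hcc⟩, hcD⟩ := fixed_points_quotient (zpowers (h : G)) T (zpowers_le.2 (hHT h.2)) hcopT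
      (Or.inl inferInstance) D hDT.le hTD (zpowers_le.2 (hHD h.2)) t ht hfix'
    have hcK : c ∈ K := by
      apply d.cent_M M hMH hinf h.2 hh1 (hSM (hTS hc))
      exact (mem_centralizer_iff.1 hcc _ (mem_zpowers _)).symm
    have hcD' : c ∈ D := hD ▸ ⟨hTS hc, hcK⟩
    have h8 : (t : G) ∈ D := by
      have := mul_mem hcD' (inv_mem hcD)
      simpa using this
    rw [(hφ1 t).2 h8]; exact one_mem _
  · intro h1
    obtain ⟨t, ht, htD⟩ := SetLike.exists_of_lt hDT
    have h2 : φ ⟨t, hTJ ht⟩ ∈ (T.subgroupOf J).map φ := (hVmem _).2 ⟨_, ht, rfl⟩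
    rw [h1, mem_bot, hφ1] at h2
    exact htD h2
  · intro h1
    obtain ⟨x, hx, hx1⟩ := (Subgroup.bot_or_exists_ne_one H).resolve_left hH
    have h2 : f ⟨x, hx⟩ ∈ f.range := ⟨_, rfl⟩
    rw [h1, mem_bot] at h2
    have h3 := hfinj (h2.trans (map_one f).symm)
    exact hx1 (congrArg Subtype.val h3)

end part2

end Cfsg.Agent.H24.TIHall
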