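import Mathlib
import Cfsg.Agent.H1_Hall
import Cfsg.Agent.H1_Nilp

/-! Transvections over `F₂` whose product has odd order. -/

set_option autoImplicit false

namespace Cfsg.Agent.H24.Trv

variable {V : Type*} [AddCommGroup V] [Module (ZMod 2) V]

theorem add_self (v : V) : v + v = 0 := by
  have h : (2 : ZMod 2) • v = 0 := by
    have : (2 : ZMod 2) = 0 := by decide
    rw [this, zero_smul]
  rwa [two_smul] at h

theorem cases2 (c : ZMod 2) : c = 0 ∨ c = 1 := by revert c; decide

theorem odd_smul {n : ℕ} (hn : Odd n) (a : V) : n • a = a := by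
  obtain ⟨k, rfl⟩ := hn
  rw [add_smul, one_smul, mul_comm, mul_smul, two_smul, add_self, smul_zero, zero_add]

theorem eq_one_of_sq {G : Type*} [Group G] {z : G} {n : ℕ} (hn : Odd n) (hz : z ^ n = 1) (h2 : z * z = 1) :
    z = 1 := by
  obtain ⟨k, rfl⟩ := hn
  rw [pow_succ, pow_mul, pow_two, h2, one_pow, one_mul] at hz
  exact hz

theorem sq_one (T : V ≃ₗ[ZMod 2] V) (α : V →ₗ[ZMod 2] ZMod 2) (a : V) (h1 : ∀ v, T v = v + α v • a)
    (ha : α a = 0) : T * T = 1 := by
  ext v
  show T (T v) = v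
  rw [h1 (T v), h1 v, map_add, map_smul, ha, smul_zero, add_zero, add_assoc, add_self, add_zero]

theorem pow_apply {z : V ≃ₗ[ZMod 2] V} {a b : V} (hb : z b = b + a) (ha : z a = a) (k : ℕ) :
    (z ^ k) b = b + k • a := by
  induction k with
  | zero => simp
  | succ k ih =>
    rw [pow_succ']
    show z ((z ^ k) b) = _
    rw [ih, map_add, map_nsmul, hb, ha, succ_nsmul]
    abel

theorem eq_of_left_zero (T1 T2 : V ≃ₗ[ZMod 2] V) (h : T1 = 1) (β : V →ₗ[ZMod 2] ZMod 2) (b : V)
    (h2 : ∀ v, T2 v = v + β v • b) (hb : β b = 0) {n : ℕ} (hn : Odd n) (hz : (T1 * T2) ^ n = 1) : T1 = T2 := by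
  rw [h, one_mul] at hz
  rw [h, eq_one_of_sq hn hz (sq_one T2 β b h2 hb)]

theorem L (T1 T2 : V ≃ₗ[ZMod 2] V) (α β : V →ₗ[ZMod 2] ZMod 2) (a b : V)
    (h1 : ∀ v, T1 v = v + α v • a) (h2 : ∀ v, T2 v = v + β v • b) (ha : α a = 0) (hb : β b = 0)
    {n : ℕ} (hn : Odd n) (hz : (T1 * T2) ^ n = 1) : T1 = T2 ∨ (α b = 1 ∧ β a = 1) := by
  have hzv : ∀ v, (T1 * T2) v = v + β v • b + (α v + β v * α b) • a := by
    intro v
    show T1 (T2 v) = _
    rw [h1, h2, map_add, map_smul, smul_eq_mul]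
  rcases cases2 (α b) with h3 | h3
  · rcases cases2 (β a) with h4 | h4
    · left
      have h5 : (T1 * T2) * (T1 * T2) = 1 := by
        ext v
        show (T1 * T2) ((T1 * T2) v) = v
        rw [hzv ((T1 * T2) v), hzv v, h3]
        simp only [map_add, map_smul, ha, hb, h3, h4, smul_eq_mul, mul_zero, add_zero]
        have e1 := add_self (β v • b)
        have e2 := add_self (α v • a)
        calc v + β v • b + α v • a + β v • b + α v • a
            = v + (β v • b + β v • b) + (α v • a + α v • a) := by abel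
          _ = v := by rw [e1, e2, add_zero, add_zero]
      have h6 := eq_one_of_sq hn hz h5
      have h7 := sq_one T2 β b h2 hb
      calc T1 = (T1 * T2) * T2⁻¹ := by group
        _ = T2⁻¹ := by rw [h6, one_mul]
        _ = T2 := by
          rw [inv_eq_iff_mul_eq_one]; exact h7
    · left
      have e1 : (T1 * T2) a = a + b := by
        rw [hzv, h3, h4, ha, one_smul]; simp
      have e2 : (T1 * T2) b = b := by
        rw [hzv, h3, hb]; simp
      have e3 := pow_apply e1 e2 n
      rw [hz, odd_smul hn] at e3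
      have e4 : b = 0 := by
        have : a = a + b := e3
        exact (left_eq_add.1 this)
      have hT2 : T2 = 1 := by
        ext v
        rw [h2, e4, smul_zero, add_zero]; rfl
      rw [hT2, mul_one] at hz
      rw [hT2, eq_one_of_sq hn hz (sq_one T1 α a h1 ha)]
  · rcases cases2 (β a) with h4 | h4
    · left
      have e1 : (T1 * T2) b = b + a := by
        rw [hzv, h3, hb]; simp
      have e2 : (T1 * T2) a = a := by
        rw [hzv, h3, h4, ha]; simp
      have e3 := pow_apply e1 e2 n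
      rw [hz, odd_smul hn] at e3
      have e4 : a = 0 := by
        have : b = b + a := e3
        exact (left_eq_add.1 this)
      have hT1 : T1 = 1 := by
        ext v
        rw [h1, e4, smul_zero, add_zero]; rfl
      exact eq_of_left_zero T1 T2 hT1 β b h2 hb hn hz
    · exact Or.inr ⟨h3, h4⟩

theorem conj_formula (T1 T2 : V ≃ₗ[ZMod 2] V) (α β : V →ₗ[ZMod 2] ZMod 2) (a b : V)
    (h1 : ∀ v, T1 v = v + α v • a) (h2 : ∀ v, T2 v = v + β v • b) (ha : α a = 0)
    (e1 : α b = 1) (e2 : β a = 1) (v : V) : (T1 * T2 * T1) v = v + (β v + α v) • (b + a) := by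
  show T1 (T2 (T1 v)) = _
  rw [h1 (T2 (T1 v)), h2 (T1 v), h1 v]
  simp only [map_add, map_smul, ha, e1, e2, smul_eq_mul, mul_one, mul_zero, add_zero]
  have c2 : (α v + (β v + α v)) = β v := by
    rcases cases2 (α v) with h | h <;> rw [h]
    · ring
    · have : (1 : ZMod 2) + 1 = 0 := by decide
      calc (1 : ZMod 2) + (β v + 1) = β v + (1 + 1) := by ring
        _ = β v := by rw [this, add_zero]
  rw [c2, smul_add]
  have c3 : (β v + α v) • a = β v • a + α v • a := add_smul _ _ _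
  rw [c3]
  abel

theorem braid (T1 T2 : V ≃ₗ[ZMod 2] V) (α β : V →ₗ[ZMod 2] ZMod 2) (a b : V)
    (h1 : ∀ v, T1 v = v + α v • a) (h2 : ∀ v, T2 v = v + β v • b) (ha : α a = 0) (hb : β b = 0)
    (e1 : α b = 1) (e2 : β a = 1) : (T1 * T2) ^ 3 = 1 := by
  have h3 : T1 * T2 * T1 = T2 * T1 * T2 := by
    ext v
    rw [conj_formula T1 T2 α β a b h1 h2 ha e1 e2, conj_formula T2 T1 β α b a h2 h1 hb e2 e1,
      add_comm (β v), add_comm b]
  have h4 := sq_one T1 α a h1 ha
  have h5 := sq_one T2 β b h2 hb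
  calc (T1 * T2) ^ 3 = (T1 * T2 * T1) * (T2 * T1 * T2) := by
        rw [pow_succ, pow_two]; group
    _ = (T1 * T2 * T1) * (T1 * T2 * T1) := by rw [← h3]
    _ = T1 * T2 * (T1 * T1) * T2 * T1 := by group
    _ = T1 * (T2 * T2) * T1 := by rw [h4]; group
    _ = 1 := by rw [h5, mul_one, h4]

/-- three transvections with pairwise products of odd order -/
theorem three (t T1 T2 T3 : V ≃ₗ[ZMod 2] V) (φ α β : V →ₗ[ZMod 2] ZMod 2) (e a b : V)
    (h0 : ∀ v, t v = v + φ v • e) (h1 : ∀ v, T1 v = v + α v • a) (h2 : ∀ v, T2 v = v + β v • b)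
    (he : φ e = 0) (ha : α a = 0) (hb : β b = 0) (hT3 : T3 = T1 * t * T1)
    {n : ℕ} (hn : Odd n) (z1 : (t * T1) ^ n = 1) (z2 : (t * T2) ^ n = 1) (z3 : (T1 * T2) ^ n = 1)
    (z4 : (T3 * T2) ^ n = 1) (hne : t ≠ T1) : T2 = t ∨ T2 = T1 ∨ T2 = T3 := by
  rcases L t T1 φ α e a h0 h1 he ha hn z1 with h | ⟨e1, e2⟩
  · exact absurd h hne
  rcases L t T2 φ β e b h0 h2 he hb hn z2 with h | ⟨e3, e4⟩
  · exact Or.inl h.symm
  rcases L T1 T2 α β a b h1 h2 ha hb hn z3 with h | ⟨e5, e6⟩
  · exact Or.inr (Or.inl h.symm)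
  right; right
  have h3 : ∀ v, T3 v = v + (φ + α) v • (e + a) := by
    intro v
    rw [hT3]
    show T1 (t (T1 v)) = _
    rw [h1 (t (T1 v)), h0 (T1 v), h1 v]
    simp only [map_add, map_smul, ha, e1, e2, smul_eq_mul, mul_one, mul_zero, add_zero, LinearMap.add_apply]
    have c1 := add_self (α v • a)
    have c2 : (α v + (φ v + α v)) = φ v := by
      rcases cases2 (α v) with h | h <;> rw [h]
      · ring
      · have : (1 : ZMod 2) + 1 = 0 := by decide
        calc (1 : ZMod 2) + (φ v + 1) = φ v + (1 + 1) := by ring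
          _ = φ v := by rw [this, add_zero]
    rw [c2, smul_add]
    have c3 : (φ v + α v) • a = φ v • a + α v • a := add_smul _ _ _
    rw [c3]
    abel
  have he3 : (φ + α) (e + a) = 0 := by
    simp only [LinearMap.add_apply, map_add, he, ha, e1, e2]
    decide
  rcases L T3 T2 (φ + α) β (e + a) b h3 h2 he3 hb hn z4 with h | ⟨e7, -⟩
  · exact h.symm
  · exfalso
    rw [LinearMap.add_apply, e3, e5] at e7
    revert e7; decide

end Cfsg.Agent.H24.Trv
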