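import Cfsg.Statements.S3276
import Mathlib
import Cfsg.Agent.H19_Inv

set_option autoImplicit false
open Cfsg

namespace Cfsg.Agent.S3276

open Cfsg.Agent.H19.Inv

theorem ea_normalClosure {G : Type*} [Group G] {y : G} (hy : y * y = 1) (h : ∀ g : G, Commute (g * y * g⁻¹) y) :
    Cfsg.IsElementaryAbelian 2 (Subgroup.normalClosure ({y} : Set G)) := by
  have hmem : ∀ u, u ∈ Group.conjugatesOfSet ({y} : Set G) → ∃ g : G, u = g * y * g⁻¹ := by
    intro u hu
    rw [Group.mem_conjugatesOfSet_iff] at hu
    obtain ⟨a, ha, hc⟩ := hu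
    rw [Set.mem_singleton_iff] at ha
    subst ha
    obtain ⟨c, hc⟩ := isConj_iff.1 hc
    exact ⟨c, hc.symm⟩
  have hc2 : ∀ u ∈ Group.conjugatesOfSet ({y} : Set G), ∀ v ∈ Group.conjugatesOfSet ({y} : Set G), u * v = v * u := by
    intro u hu v hv
    obtain ⟨g, rfl⟩ := hmem u hu
    obtain ⟨k, rfl⟩ := hmem v hv
    have h1 := h (k⁻¹ * g)
    have h2 := commute_conj k h1
    have h3 : k * (k⁻¹ * g * y * (k⁻¹ * g)⁻¹) * k⁻¹ = g * y * g⁻¹ := by group
    rw [h3] at h2
    exact h2.eq
  have hcomm : IsMulCommutative (Subgroup.normalClosure ({y} : Set G)) := by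
    unfold Subgroup.normalClosure
    exact Subgroup.isMulCommutative_closure hc2
  refine ⟨hcomm, ?_⟩
  intro a ha
  unfold Subgroup.normalClosure at ha hcomm
  induction ha using Subgroup.closure_induction with
  | mem u hu =>
    obtain ⟨g, rfl⟩ := hmem u hu
    calc (g * y * g⁻¹) ^ 2 = g * (y * y) * g⁻¹ := by rw [sq]; group
      _ = 1 := by rw [hy]; group
  | one => simp
  | mul u v hu hv h1 h2 =>
    have h3 : u * v = v * u := congrArg Subtype.val (hcomm.is_comm.comm ⟨u, hu⟩ ⟨v, hv⟩)
    calc (u * v) ^ 2 = u * (v * u) * v := by rw [sq]; group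
      _ = u ^ 2 * v ^ 2 := by rw [← h3, sq, sq]; group
      _ = 1 := by rw [h1, h2, one_mul]
  | inv u hu h1 => rw [inv_pow, h1, inv_one]

theorem card_le_four {G : Type*} [Group G] [Finite G] {N : Subgroup G} (hN : N.Normal) (hE : Cfsg.IsElementaryAbelian 2 N)
    {x y : G} (hx : x * x = 1) (h : ∀ n ∈ N, Commute n x → n = 1 ∨ n = y) : Nat.card N ≤ 4 := by
  classical
  have hcomm : ∀ a ∈ N, ∀ b ∈ N, a * b = b * a := fun a ha b hb =>
    congrArg Subtype.val (hE.1.is_comm.comm ⟨a, ha⟩ ⟨b, hb⟩)
  have hxinv : x⁻¹ = x := inv_eq_of_mul_eq_one_left hx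
  let f : N →* N :=
    { toFun := fun n => ⟨n * (x * n * x⁻¹), N.mul_mem n.2 (hN.conj_mem _ n.2 x)⟩
      map_one' := by apply Subtype.ext; simp
      map_mul' := by
        intro a b
        apply Subtype.ext
        show (a : G) * b * (x * (a * b) * x⁻¹) = (a * (x * a * x⁻¹)) * (b * (x * b * x⁻¹))
        have h1 := hcomm (x * a * x⁻¹) (hN.conj_mem _ a.2 x) b b.2
        calc (a : G) * b * (x * (a * b) * x⁻¹) = a * (b * (x * a * x⁻¹)) * (x * b * x⁻¹) := by group
          _ = a * ((x * a * x⁻¹) * b) * (x * b * x⁻¹) := by rw [h1]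
          _ = _ := by group }
  have hker : ∀ n : N, n ∈ f.ker ↔ Commute (n : G) x := by
    intro n
    have hn2 : (n : G) * n = 1 := by rw [← sq]; exact hE.2 n n.2
    have hninv : (n : G)⁻¹ = n := inv_eq_of_mul_eq_one_left hn2
    rw [MonoidHom.mem_ker]
    constructor
    · intro h1
      have h2 : (n : G) * (x * n * x⁻¹) = 1 := congrArg Subtype.val h1
      have h3 : x * n * x⁻¹ = (n : G)⁻¹ := (inv_eq_of_mul_eq_one_right h2).symm
      rw [hninv, mul_inv_eq_iff_eq_mul] at h3
      exact h3.symm
    · intro h1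
      apply Subtype.ext
      show (n : G) * (x * n * x⁻¹) = 1
      rw [← h1.eq]
      calc (n : G) * (n * x * x⁻¹) = n * n := by group
        _ = 1 := hn2
  have hrk : f.range ≤ f.ker := by
    rintro _ ⟨n, rfl⟩
    rw [hker]
    show (n : G) * (x * n * x⁻¹) * x = x * (n * (x * n * x⁻¹))
    have h1 := hcomm (x * n * x⁻¹) (hN.conj_mem _ n.2 x) n n.2
    calc (n : G) * (x * n * x⁻¹) * x = n * x * n := by group
      _ = (x * x) * n * x⁻¹ * n := by rw [hx, one_mul, hxinv]
      _ = x * ((x * n * x⁻¹) * n) := by group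
      _ = x * (n * (x * n * x⁻¹)) := by rw [h1]
  have hk2 : Nat.card f.ker ≤ 2 := by
    have : Set.ncard (f.ker : Set N) ≤ 2 := by
      by_cases hy : y ∈ N
      · have : (f.ker : Set N) ⊆ {1, ⟨y, hy⟩} := by
          intro n hn
          rcases h n n.2 ((hker n).1 hn) with h1 | h1
          · left; exact Subtype.ext h1
          · right; exact Subtype.ext h1
        calc Set.ncard (f.ker : Set N) ≤ Set.ncard ({1, ⟨y, hy⟩} : Set N) := Set.ncard_le_ncard this (Set.toFinite _)
          _ ≤ 2 := by
            refine (Set.ncard_insert_le _ _).trans ?_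
            rw [Set.ncard_singleton]
      · have : (f.ker : Set N) ⊆ {1} := by
          intro n hn
          rcases h n n.2 ((hker n).1 hn) with h1 | h1
          · exact Subtype.ext h1
          · exact absurd (h1 ▸ n.2) hy
        calc Set.ncard (f.ker : Set N) ≤ Set.ncard ({1} : Set N) := Set.ncard_le_ncard this (Set.toFinite _)
          _ ≤ 2 := by rw [Set.ncard_singleton]; norm_num
    exact this
  have h5 : Nat.card N = Nat.card f.ker * Nat.card f.range := by
    rw [← Subgroup.index_ker f]
    exact (Subgroup.card_mul_index f.ker).symm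
  have h6 : Nat.card f.range ≤ Nat.card f.ker := Subgroup.card_le_of_le hrk
  nlinarith

/-- Let x and y be commuting, non-conjugate involutions of a finite group G, and suppose that for every involution u commuting with x, each conjugate of y that commutes with u also commutes with y. Then the normal closure of y is a proper, normal, elementary abelian 2-subgroup of G; and if y is the only involution of that normal closure commuting with x, it has order at most 4. -/
theorem result {G : Type*} [Group G] [Finite G] (x y : G) (hx : orderOf x = 2) (hy : orderOf y = 2)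
    (hxy : Commute x y) (hnc : ¬ IsConj x y)
    (hstar : ∀ u : G, orderOf u = 2 → Commute u x → ∀ g : G, Commute (g * y * g⁻¹) u → Commute (g * y * g⁻¹) y) :
    Subgroup.normalClosure ({y} : Set G) ≠ ⊤ ∧ Cfsg.IsElementaryAbelian 2 (Subgroup.normalClosure ({y} : Set G)) ∧
      ((∀ u ∈ Subgroup.normalClosure ({y} : Set G), orderOf u = 2 → Commute u x → u = y) →
        Nat.card ↥(Subgroup.normalClosure ({y} : Set G)) ≤ 4) := by
  have hy2 := (inv_iff.1 hy).1
  have hx2 := (inv_iff.1 hx).1
  have hall : ∀ g : G, Commute (g * y * g⁻¹) y := by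
    intro g
    have hyg : orderOf (g * y * g⁻¹) = 2 := by rw [conj_orderOf, hy]
    have hnc' : ¬ IsConj x (g * y * g⁻¹) := by
      intro h
      apply hnc
      exact h.trans (isConj_iff.2 ⟨g⁻¹, by group⟩)
    obtain ⟨u, hu, hux, huy, _⟩ := exists_common hx hyg hnc'
    exact hstar u hu hux g huy.symm
  have hE := ea_normalClosure hy2 hall
  have hyN : y ∈ Subgroup.normalClosure ({y} : Set G) := Subgroup.subset_normalClosure (Set.mem_singleton y)
  refine ⟨?_, hE, ?_⟩
  · intro htop
    have hcent : ∀ g : G, g * y = y * g := by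
      intro g
      have hg : g ∈ Subgroup.normalClosure ({y} : Set G) := by rw [htop]; trivial
      exact congrArg Subtype.val (hE.1.is_comm.comm ⟨g, hg⟩ ⟨y, hyN⟩)
    have h1 : (Subgroup.zpowers y).Normal := by
      refine ⟨?_⟩
      intro n hn g
      obtain ⟨k, rfl⟩ := Subgroup.mem_zpowers_iff.1 hn
      have : Commute g (y ^ k) := Commute.zpow_right (hcent g) k
      rw [this.eq]; simpa using hn
    have h2 : Subgroup.normalClosure ({y} : Set G) ≤ Subgroup.zpowers y := by
      apply Subgroup.normalClosure_le_normal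
      rw [Set.singleton_subset_iff]
      exact Subgroup.mem_zpowers y
    have h3 : x ∈ Subgroup.zpowers y := h2 (by rw [htop]; trivial)
    classical
    rw [mem_zpowers_iff_mem_range_orderOf, hy] at h3
    simp only [Finset.mem_image, Finset.mem_range] at h3
    obtain ⟨k, hk, hkx⟩ := h3
    interval_cases k
    · rw [pow_zero] at hkx
      exact (inv_iff.1 hx).2 hkx.symm
    · rw [pow_one] at hkx
      exact hnc (by rw [hkx])
  · intro hu
    apply card_le_four Subgroup.normalClosure_normal hE hx2 (y := y)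
    intro n hn hc
    by_cases h1 : n = 1
    · exact Or.inl h1
    · right
      apply hu n hn _ hc
      rw [inv_iff]
      exact ⟨by rw [← sq]; exact hE.2 n hn, h1⟩

end Cfsg.Agent.S3276
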