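import Cfsg.Statements.S3277
import Mathlib
import Cfsg.Agent.H19_V4
import Cfsg.Agent.S3276

set_option autoImplicit false
open Cfsg

namespace Cfsg.Agent.S3277

open Cfsg.Agent.H19.Inv Cfsg.Agent.H13.Syl

theorem klein_mem {G : Type*} [Group G] [Finite G] {V : Subgroup G} (h4 : Nat.card V = 4) {a b : G} (ha : a ∈ V) (hb : b ∈ V)
    (ha1 : a ≠ 1) (hb1 : b ≠ 1) (hab : a ≠ b) (haa : a * a = 1) : ∀ y ∈ V, y = 1 ∨ y = a ∨ y = b ∨ y = a * b := by
  classical
  have h1 : ({1, a, b, a * b} : Set G) ⊆ (V : Set G) := by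
    intro y hy
    simp only [Set.mem_insert_iff, Set.mem_singleton_iff] at hy
    rcases hy with rfl | rfl | rfl | rfl
    · exact V.one_mem
    · exact ha
    · exact hb
    · exact V.mul_mem ha hb
  have hne : a * b ≠ 1 := by
    intro h
    apply hab
    have : a * (a * b) = a * 1 := by rw [h]
    rw [← mul_assoc, haa, one_mul, mul_one] at this
    exact this.symm
  have h2 : Set.ncard ({1, a, b, a * b} : Set G) = 4 := by
    rw [Set.ncard_insert_of_notMem, Set.ncard_insert_of_notMem, Set.ncard_pair]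
    · intro h
      exact ha1 (mul_eq_right.1 h.symm)
    · simp only [Set.mem_insert_iff, Set.mem_singleton_iff, not_or]
      exact ⟨hab, fun h => hb1 (mul_eq_left.1 h.symm)⟩
    · simp only [Set.mem_insert_iff, Set.mem_singleton_iff, not_or]
      exact ⟨Ne.symm ha1, Ne.symm hb1, Ne.symm hne⟩
  have h3 : Set.ncard (V : Set G) = 4 := h4
  have h5 := Set.eq_of_subset_of_ncard_le h1 (by rw [h2, h3]) (Set.toFinite _)
  intro y hy
  have : y ∈ (V : Set G) := hy
  rw [← h5] at this
  simpa using this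

section
variable {G : Type*} [Group G] [Finite G] (x : G) (hx : orderOf x = 2)
    (hC4 : Nat.card ↥(Subgroup.centralizer ({x} : Set G)) = 4) (hCe : ∀ c ∈ Subgroup.centralizer ({x} : Set G), c ^ 2 = 1)
include hx hC4 hCe

theorem step2 (hne : ∀ E : Subgroup G, E.Normal → Cfsg.IsElementaryAbelian 2 E → Nat.card ↥E ≠ 2 ∧ Nat.card ↥E ≠ 4) :
    ∃ S : Sylow 2 G, (S : Subgroup G) = Subgroup.centralizer ({x} : Set G) := by
  classical
  have : Fact (Nat.Prime 2) := ⟨Nat.prime_two⟩
  set V := Subgroup.centralizer ({x} : Set G) with hV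
  have hx1 : x ≠ 1 := (inv_iff.1 hx).2
  have hxx : x * x = 1 := (inv_iff.1 hx).1
  have hmem : ∀ y, y ∈ V ↔ y * x = x * y := fun y => by rw [hV, Subgroup.mem_centralizer_singleton_iff]
  have hxV : x ∈ V := by rw [hmem]
  have hV2 : IsPGroup 2 V := by
    rw [IsPGroup.iff_card]
    exact ⟨2, by rw [hC4]; norm_num⟩
  obtain ⟨S, hVS⟩ := hV2.exists_le_sylow
  refine ⟨S, ?_⟩
  by_contra hne2
  have hlt : V < (S : Subgroup G) := lt_of_le_of_ne hVS (Ne.symm hne2)
  have h1 := lt_normalizer_of_lt S.isPGroup' hlt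
  obtain ⟨n, hn, hnV⟩ := SetLike.exists_of_lt h1
  have hnS : n ∈ (S : Subgroup G) := hn.1
  have hnN : n ∈ Subgroup.normalizer (V : Set G) := hn.2
  have hconj : ∀ y ∈ V, n * y * n⁻¹ ∈ V := fun y hy => (Subgroup.mem_normalizer_iff.1 hnN y).1 hy
  set x' := n * x * n⁻¹ with hx'
  have hx'V : x' ∈ V := hconj x hxV
  have hx'x : x' ≠ x := by
    intro h
    apply hnV
    rw [hmem]
    rw [hx', mul_inv_eq_iff_eq_mul] at h
    exact h
  have hx'o : orderOf x' = 2 := by rw [hx', conj_orderOf, hx]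
  have hx'1 : x' ≠ 1 := (inv_iff.1 hx'o).2
  have hcomm : ∀ a ∈ V, ∀ b ∈ V, a * b = b * a := by
    intro a ha b hb
    have h2 := hCe _ (V.mul_mem ha hb)
    have ha2 := hCe _ ha
    have hb2 := hCe _ hb
    rw [sq] at h2 ha2 hb2
    have e1 : a⁻¹ = a := inv_eq_of_mul_eq_one_left ha2
    have e2 : b⁻¹ = b := inv_eq_of_mul_eq_one_left hb2
    have e3 : (a * b)⁻¹ = a * b := inv_eq_of_mul_eq_one_left h2
    rw [mul_inv_rev, e1, e2] at e3
    exact e3.symm
  have hVmem := klein_mem hC4 hxV hx'V hx1 hx'1 (Ne.symm hx'x) hxx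
  set z := x * x' with hz
  have hzV : z ∈ V := V.mul_mem hxV hx'V
  have hz1 : z ≠ 1 := by
    intro h
    apply hx'x
    have : x * (x * x') = x * 1 := by rw [← h]
    rw [← mul_assoc, hxx, one_mul, mul_one] at this
    exact this
  have hnx' : n * x' * n⁻¹ = x := by
    rcases hVmem _ (hconj _ hx'V) with h | h | h | h
    · exfalso
      apply hx'1
      have : x' = n⁻¹ * (n * x' * n⁻¹) * n := by group
      rw [this, h]; group
    · exact h
    · exfalso
      apply hx'x
      have h2 : n * x' * n⁻¹ = n * x * n⁻¹ := h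
      exact mul_left_cancel (mul_right_cancel h2)
    · exfalso
      -- n^3 centralises x
      have h3 : n * z * n⁻¹ = x := by
        calc n * z * n⁻¹ = (n * x * n⁻¹) * (n * x' * n⁻¹) := by rw [hz]; group
          _ = x' * (x * x') := by rw [h, ← hx']
          _ = x' * (x' * x) := by rw [hcomm x hxV x' hx'V]
          _ = x := by rw [← mul_assoc, (inv_iff.1 hx'o).1, one_mul]
      have h4 : n ^ 3 ∈ V := by
        rw [hmem]
        have : n ^ 3 * x * (n ^ 3)⁻¹ = x := by
          have e3 : n ^ 3 = n * n * n := by rw [pow_succ, sq]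
          rw [e3]
          calc n * n * n * x * (n * n * n)⁻¹ = n * (n * (n * x * n⁻¹) * n⁻¹) * n⁻¹ := by group
            _ = x := by rw [← hx', h, h3]
        rw [mul_inv_eq_iff_eq_mul] at this
        exact this
      apply hnV
      -- n is a power of n^3
      obtain ⟨k, hk⟩ := IsPGroup.iff_orderOf.1 S.isPGroup' ⟨n, hnS⟩
      rw [Subgroup.orderOf_mk] at hk
      have h5 : Nat.Coprime 3 (orderOf n) := by
        rw [hk]; exact Nat.Coprime.pow_right k (by norm_num)
      obtain ⟨m, hm⟩ := exists_pow_eq_self_of_coprime h5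
      rw [← hm]
      exact V.pow_mem h4 m
  have hnz : n * z * n⁻¹ = z := by
    calc n * z * n⁻¹ = (n * x * n⁻¹) * (n * x' * n⁻¹) := by rw [hz]; group
      _ = x' * x := by rw [hnx', ← hx']
      _ = z := (hcomm x hxV x' hx'V).symm
  have hzo : orderOf z = 2 := by
    rw [inv_iff]
    exact ⟨by rw [← sq]; exact hCe z hzV, hz1⟩
  have hVCz : V ≤ Subgroup.centralizer ({z} : Set G) := by
    intro y hy
    rw [Subgroup.mem_centralizer_singleton_iff]
    exact hcomm y hy z hzV
  have hxz : Commute x z := hcomm x hxV z hzV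
  have hnc : ¬ IsConj x z := by
    intro h
    obtain ⟨g, hg⟩ := isConj_iff.1 h
    have h2 : Nat.card (Subgroup.centralizer ({z} : Set G)) = 4 := by
      rw [← hg, ← cj_centralizer_singleton, card_cj, hC4]
    have h3 : V = Subgroup.centralizer ({z} : Set G) := Subgroup.eq_of_le_of_card_ge hVCz (by rw [h2, hC4])
    apply hnV
    rw [h3, Subgroup.mem_centralizer_singleton_iff]
    rw [mul_inv_eq_iff_eq_mul] at hnz
    exact hnz
  have hstar : ∀ u : G, orderOf u = 2 → Commute u x → ∀ g : G, Commute (g * z * g⁻¹) u → Commute (g * z * g⁻¹) z := by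
    intro u hu hux g hgu
    have huV : u ∈ V := (hmem u).2 hux.eq
    have key : ∀ y, Commute (g * z * g⁻¹) y → (Subgroup.centralizer ({y} : Set G) = V) → Commute (g * z * g⁻¹) z := by
      intro y hy hCy
      have h2 : g * z * g⁻¹ ∈ V := by
        rw [← hCy, Subgroup.mem_centralizer_singleton_iff]; exact hy.eq
      exact hcomm _ h2 z hzV
    rcases hVmem u huV with h | h | h | h
    · exact absurd h (inv_iff.1 hu).2
    · exact key x (h ▸ hgu) rfl
    · apply key x' (h ▸ hgu)
      rw [hx', ← cj_centralizer_singleton, ← hV]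
      exact cj_eq_of_mem_normalizer hnN
    · rw [h] at hgu; exact hgu
  obtain ⟨hE1, hE2, hE3⟩ := S3276.result x z hx hzo hxz hnc hstar
  set E := Subgroup.normalClosure ({z} : Set G) with hE
  have hzE : z ∈ E := Subgroup.subset_normalClosure (Set.mem_singleton z)
  have hE4 : Nat.card E ≤ 4 := by
    by_cases hc : ∀ u ∈ E, orderOf u = 2 → Commute u x → u = z
    · exact hE3 hc
    · push Not at hc
      obtain ⟨u, huE, hu, hux, huz⟩ := hc
      have huV : u ∈ V := (hmem u).2 hux.eq
      have hxE : x ∈ E := by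
        rcases hVmem u huV with h | h | h | h
        · exact absurd h (inv_iff.1 hu).2
        · exact h ▸ huE
        · have h2 : x = z * u := by
            rw [h, hz, mul_assoc, (inv_iff.1 hx'o).1, mul_one]
          rw [h2]; exact E.mul_mem hzE huE
        · exact absurd h huz
      have hEV : E ≤ V := by
        intro y hy
        rw [hmem]
        exact congrArg Subtype.val (hE2.1.is_comm.comm ⟨y, hy⟩ ⟨x, hxE⟩)
      rw [← hC4]; exact Subgroup.card_le_of_le hEV
  have hEp : IsPGroup 2 E := by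
    intro y
    refine ⟨1, ?_⟩
    rw [pow_one]
    exact Subtype.ext (hE2.2 y y.2)
  obtain ⟨k, hk⟩ := IsPGroup.iff_card.1 hEp
  obtain ⟨hn2, hn4⟩ := hne E Subgroup.normalClosure_normal hE2
  have hk0 : k ≠ 0 := by
    rintro rfl
    rw [pow_zero, Subgroup.card_eq_one] at hk
    rw [hk, Subgroup.mem_bot] at hzE
    exact hz1 hzE
  have hk1 : k ≠ 1 := by rintro rfl; rw [pow_one] at hk; exact hn2 hk
  have hk2 : k ≠ 2 := by rintro rfl; norm_num at hk; exact hn4 hk
  have hk3 : 3 ≤ k := by omega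
  have : 2 ^ 3 ≤ 2 ^ k := Nat.pow_le_pow_right (by norm_num) hk3
  omega

omit hx hCe in
theorem step3 (S : Sylow 2 G) (hS : (S : Subgroup G) = Subgroup.centralizer ({x} : Set G))
    (hx1 : x ≠ 1) (hcomm : ∀ a ∈ Subgroup.centralizer ({x} : Set G), ∀ b ∈ Subgroup.centralizer ({x} : Set G), a * b = b * a)
    (hnc : ¬ Cfsg.HasNormalPComplement 2 G) :
    Nat.card (Subgroup.normalizer ((S : Subgroup G) : Set G)) = 12 ∧
    ∀ v ∈ (S : Subgroup G), v ≠ 1 → ∃ n ∈ Subgroup.normalizer ((S : Subgroup G) : Set G), n * x * n⁻¹ = v := by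
  classical
  have : Fact (Nat.Prime 2) := ⟨Nat.prime_two⟩
  set V := Subgroup.centralizer ({x} : Set G) with hV
  have hmem : ∀ y, y ∈ V ↔ y * x = x * y := fun y => by rw [hV, Subgroup.mem_centralizer_singleton_iff]
  have hxV : x ∈ V := by rw [hmem]
  set N := Subgroup.normalizer ((S : Subgroup G) : Set G) with hN
  have hSN : (S : Subgroup G) ≤ N := Subgroup.le_normalizer
  -- index
  let W := (S : Subgroup G).subgroupOf N
  have hWodd : ¬ 2 ∣ W.index := by
    intro h
    apply S.not_dvd_index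
    rw [← Subgroup.relIndex_mul_index hSN]
    exact h.mul_right _
  have hW1 : W.index ≠ 1 := by
    intro h
    rw [Subgroup.index_eq_one, Subgroup.subgroupOf_eq_top] at h
    apply hnc
    have hle : Subgroup.normalizer (S : Set G) ≤ Subgroup.centralizer (S : Set G) := by
      intro n hn
      have hn' : n ∈ V := hS ▸ h hn
      rw [Subgroup.mem_centralizer_iff]
      intro s hs
      have hs' : s ∈ V := hS ▸ hs
      exact hcomm s hs' n hn'
    exact ⟨S, (MonoidHom.transferSylow S hle).ker, inferInstance, MonoidHom.ker_transferSylow_isComplement' S hle⟩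
  let X := {v : G // v ∈ (S : Subgroup G) ∧ v ≠ 1}
  have hX : Nat.card X = 3 := by
    have h1 : Nat.card {v : (S : Subgroup G) // v ≠ 1} = 3 := by
      have := Fintype.ofFinite (S : Subgroup G)
      rw [Nat.card_eq_fintype_card, Fintype.card_subtype_compl, ← Nat.card_eq_fintype_card]
      have e1 : Nat.card (S : Subgroup G) = 4 := by rw [hS]; exact hC4
      rw [e1]
      simp
    rw [← h1]
    apply Nat.card_congr
    exact {
      toFun := fun v => ⟨⟨v.1, v.2.1⟩, fun h => v.2.2 (congrArg Subtype.val h)⟩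
      invFun := fun v => ⟨v.1.1, v.1.2, fun h => v.2 (Subtype.ext h)⟩
      left_inv := fun v => rfl
      right_inv := fun v => rfl }
  let f : (N ⧸ W) → X := fun q => ⟨(q.out : G) * x * (q.out : G)⁻¹, by
    refine ⟨?_, ?_⟩
    · exact (Subgroup.mem_normalizer_iff.1 q.out.2 x).1 (hS ▸ hxV)
    · intro h
      apply hx1
      have : x = (q.out : G)⁻¹ * ((q.out : G) * x * (q.out : G)⁻¹) * (q.out : G) := by group
      rw [this, h]; group⟩
  have hf : Function.Injective f := by
    intro q r hqr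
    have h1 : (q.out : G) * x * (q.out : G)⁻¹ = (r.out : G) * x * (r.out : G)⁻¹ := congrArg Subtype.val hqr
    have h2 : ((q.out : G)⁻¹ * (r.out : G)) ∈ (S : Subgroup G) := by
      rw [hS, hmem]
      calc (q.out : G)⁻¹ * (r.out : G) * x = (q.out : G)⁻¹ * ((r.out : G) * x * (r.out : G)⁻¹) * (r.out : G) := by group
        _ = (q.out : G)⁻¹ * ((q.out : G) * x * (q.out : G)⁻¹) * (r.out : G) := by rw [h1]
        _ = _ := by group
    rw [← QuotientGroup.out_eq' q, ← QuotientGroup.out_eq' r, QuotientGroup.eq]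
    rw [Subgroup.mem_subgroupOf]
    exact h2
  have hle := Nat.card_le_card_of_injective f hf
  rw [hX] at hle
  have hle' : W.index ≤ 3 := hle
  have hpos : W.index ≠ 0 := Subgroup.index_ne_zero_of_finite
  have h3 : W.index = 3 := by
    have : W.index ≠ 2 := fun h => hWodd (by rw [h])
    omega
  refine ⟨?_, ?_⟩
  · have h4 := Subgroup.card_mul_index W
    rw [h3, Nat.card_congr (Subgroup.subgroupOfEquivOfLe hSN).toEquiv] at h4
    have e1 : Nat.card (S : Subgroup G) = 4 := by rw [hS]; exact hC4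
    rw [e1] at h4
    omega
  · intro v hv hv1
    have hbij : Function.Bijective f := by
      have := Fintype.ofFinite (N ⧸ W)
      have := Fintype.ofFinite X
      rw [Fintype.bijective_iff_injective_and_card]
      refine ⟨hf, ?_⟩
      rw [← Nat.card_eq_fintype_card, ← Nat.card_eq_fintype_card, hX]
      exact h3
    obtain ⟨q, hq⟩ := hbij.2 ⟨v, hv, hv1⟩
    exact ⟨q.out, q.out.2, congrArg Subtype.val hq⟩
end

/-- Let G be a finite group containing an involution whose centralizer is elementary abelian of order 4. If G has no normal 2-complement and no normal elementary abelian 2-subgroup of order 2 or 4, then G is isomorphic to the alternating group of degree 5 (that is, to PSL(2, 5)). -/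
theorem result {G : Type*} [Group G] [Finite G] (x : G) (hx : orderOf x = 2)
    (hC4 : Nat.card ↥(Subgroup.centralizer ({x} : Set G)) = 4) (hCe : ∀ c ∈ Subgroup.centralizer ({x} : Set G), c ^ 2 = 1)
    (hnc : ¬ Cfsg.HasNormalPComplement 2 G)
    (hne : ∀ E : Subgroup G, E.Normal → Cfsg.IsElementaryAbelian 2 E → Nat.card ↥E ≠ 2 ∧ Nat.card ↥E ≠ 4) :
    Nonempty (G ≃* ↥(alternatingGroup (Fin 5))) := by
  classical
  have : Fact (Nat.Prime 2) := ⟨Nat.prime_two⟩
  obtain ⟨S, hS⟩ := step2 x hx hC4 hCe hne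
  have hx1 : x ≠ 1 := (inv_iff.1 hx).2
  have hcomm : ∀ a ∈ Subgroup.centralizer ({x} : Set G), ∀ b ∈ Subgroup.centralizer ({x} : Set G), a * b = b * a := by
    intro a ha b hb
    have h2 := hCe _ (Subgroup.mul_mem _ ha hb)
    have ha2 := hCe _ ha
    have hb2 := hCe _ hb
    rw [sq] at h2 ha2 hb2
    have e1 : a⁻¹ = a := inv_eq_of_mul_eq_one_left ha2
    have e2 : b⁻¹ = b := inv_eq_of_mul_eq_one_left hb2
    have e3 : (a * b)⁻¹ = a * b := inv_eq_of_mul_eq_one_left h2
    rw [mul_inv_rev, e1, e2] at e3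
    exact e3.symm
  obtain ⟨hN, hT⟩ := step3 x hC4 S hS hx1 hcomm hnc
  have hPS : ∀ P : Sylow 2 G, ∃ g : G, (P : Subgroup G) = cj g (S : Subgroup G) := by
    intro P
    obtain ⟨g, hg⟩ := MulAction.exists_smul_eq G S P
    refine ⟨g, ?_⟩
    rw [← hg, Sylow.coe_subgroup_smul]
    rfl
  have hconf : H19.V4.Conf G := by
    refine ⟨?_, ?_, ?_, ?_⟩
    · intro P
      obtain ⟨g, hg⟩ := hPS P
      show Nat.card (P : Subgroup G) = 4
      rw [hg, card_cj, hS, hC4]
    · intro P v hv
      obtain ⟨g, hg⟩ := hPS P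
      rw [hg, mem_cj, hS] at hv
      have h1 := hCe _ hv
      rw [sq] at h1
      calc v * v = g * (g⁻¹ * v * g * (g⁻¹ * v * g)) * g⁻¹ := by group
        _ = 1 := by rw [h1]; group
    · intro P v hv hv1
      obtain ⟨g, hg⟩ := hPS P
      have hv' : g⁻¹ * v * g ∈ (S : Subgroup G) := by rw [hg, mem_cj] at hv; exact hv
      have hv1' : g⁻¹ * v * g ≠ 1 := by
        intro h
        apply hv1
        have : v = g * (g⁻¹ * v * g) * g⁻¹ := by group
        rw [this, h]; group
      obtain ⟨n, hn, hnv⟩ := hT _ hv' hv1'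
      have h2 : v = (g * n) * x * (g * n)⁻¹ := by
        calc v = g * (g⁻¹ * v * g) * g⁻¹ := by group
          _ = g * (n * x * n⁻¹) * g⁻¹ := by rw [hnv]
          _ = _ := by group
      rw [h2, ← cj_centralizer_singleton, ← hS, cj_mul, cj_eq_of_mem_normalizer hn, hg]
    · intro P
      obtain ⟨g, hg⟩ := hPS P
      rw [hg, ← cj_normalizer, card_cj, hN]
  by_cases hsub : Subsingleton (Sylow 2 G)
  · exfalso
    have hSn : (S : Subgroup G).Normal := Sylow.normal_of_subsingleton S
    refine (hne (S : Subgroup G) hSn ⟨⟨⟨?_⟩⟩, ?_⟩).2 (by rw [hS]; exact hC4)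
    · rintro ⟨a, ha⟩ ⟨b, hb⟩
      exact Subtype.ext (hcomm a (hS ▸ ha) b (hS ▸ hb))
    · intro a ha
      exact hCe a (hS ▸ ha)
  · rw [not_subsingleton_iff_nontrivial] at hsub
    obtain ⟨P, Q, hPQ⟩ := exists_pair_ne (Sylow 2 G)
    exact H19.V4.iso hconf hPQ

end Cfsg.Agent.S3277
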