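import Mathlib
import Cfsg.Agent.H24_Zas12
import Cfsg.Agent.H24_Zas14
import Cfsg.Agent.H4_ZStar
import Cfsg.Agent.S3277
import Cfsg.Agent.H18_Hsub3
import Cfsg.Agent.H9_Small
import Cfsg.Agent.H1_Nilp

/-! Simple groups of order 60 and nonsolvable groups of order 120. -/

namespace Cfsg.Agent.H24.Zas

open Subgroup Cfsg
open scoped Pointwise commutatorElement

/-- simple groups of order 60 -/
theorem a5_of_60 {G : Type*} [Group G] [Finite G] [IsSimpleGroup G] (h : Nat.card G = 60) :
    Nonempty (G ≃* alternatingGroup (Fin 5)) := by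
  classical
  haveI : Fact (Nat.Prime 2) := ⟨Nat.prime_two⟩
  have hG : ¬ IsMulCommutative G := H9.Small.not_comm (by rw [h]; norm_num)
  have hA : Nat.card (alternatingGroup (Fin 5)) = 60 := by
    rw [nat_card_alternatingGroup]; simp [Nat.factorial]
  obtain ⟨P⟩ : Nonempty (Sylow 2 G) := inferInstance
  have hP : Nat.card (P : Subgroup G) = 4 := by
    rw [P.card_eq_multiplicity, h]
    have : (60 : ℕ).factorization 2 = 2 := by
      rw [show (60 : ℕ) = 2 ^ 2 * 15 by norm_num, Nat.factorization_mul (by norm_num) (by norm_num),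
        Nat.Prime.factorization_pow Nat.prime_two]
      simp [Nat.factorization_eq_zero_of_not_dvd (show ¬ 2 ∣ 15 by norm_num)]
    rw [this]; norm_num
  have hPc : ∀ a ∈ (P : Subgroup G), ∀ b ∈ (P : Subgroup G), a * b = b * a := by
    have hc := IsPGroup.commutative_of_card_eq_prime_sq (p := 2) (G := (P : Subgroup G)) (by rw [hP]; norm_num)
    intro a ha b hb
    exact congrArg Subtype.val (hc ⟨a, ha⟩ ⟨b, hb⟩)
  obtain ⟨⟨x, hxP⟩, hx⟩ := exists_prime_orderOf_dvd_card' (G := (P : Subgroup G)) 2 (by rw [hP]; norm_num)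
  rw [Subgroup.orderOf_mk] at hx
  have hx1 : x ≠ 1 := by
    rintro rfl
    rw [orderOf_one] at hx
    omega
  have hPC : (P : Subgroup G) ≤ centralizer ({x} : Set G) := by
    intro a ha
    rw [mem_centralizer_singleton_iff]
    exact hPc a ha x hxP
  have hCne : centralizer ({x} : Set G) ≠ ⊤ := by
    intro e
    have hxc : x ∈ center G := by
      rw [mem_center_iff]
      intro g
      have : g ∈ centralizer ({x} : Set G) := by rw [e]; trivial
      exact mem_centralizer_singleton_iff.1 this
    rcases (inferInstance : (center G).Normal).eq_bot_or_eq_top with h1 | h1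
    · rw [h1, mem_bot] at hxc; exact hx1 hxc
    · apply hG
      refine ⟨⟨fun a b => ?_⟩⟩
      have : a ∈ center G := by rw [h1]; trivial
      exact (mem_center_iff.1 this b).symm
  have h120 := H9.Small.two_mul_card_dvd hG (centralizer ({x} : Set G)) hCne
  rw [h] at h120
  have h4 : 4 ∣ Nat.card (centralizer ({x} : Set G)) := by
    rw [← hP]; exact card_dvd_of_le hPC
  have hmul := (centralizer ({x} : Set G)).card_mul_index
  rw [h] at hmul
  obtain ⟨i, hi⟩ : ∃ i, i = (centralizer ({x} : Set G)).index := ⟨_, rfl⟩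
  rw [← hi] at h120 hmul
  have hi5 : 5 ≤ i := by
    by_contra hcon
    have : i < 5 := by omega
    interval_cases i <;> revert h120 <;> decide
  obtain ⟨c, hc⟩ := h4
  rw [hc] at hmul
  have hci : c * i = 15 := by nlinarith
  have hc3 : c ≤ 3 := by
    by_contra hcon
    have : 4 ≤ c := by omega
    nlinarith
  have hc1 : c = 1 ∨ c = 3 := by
    interval_cases c
    · omega
    · exact Or.inl rfl
    · omega
    · exact Or.inr rfl
  rcases hc1 with rfl | rfl
  · -- centralizer of order four
    have hCP : centralizer ({x} : Set G) = (P : Subgroup G) :=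
      (Subgroup.eq_of_le_of_card_ge hPC (by rw [hc, hP])).symm
    have hnc : ¬ Cfsg.HasNormalPComplement 2 G := by
      intro hn
      obtain ⟨N, hN, hN2, k, hk⟩ := H2.Basic.npc_iff.1 hn
      rcases hN.eq_bot_or_eq_top with e | e
      · rw [e, index_bot, h] at hk
        have : 3 ∣ 2 ^ k := by rw [← hk]; norm_num
        have := (Nat.prime_dvd_prime_iff_eq Nat.prime_three Nat.prime_two).1 (Nat.prime_three.dvd_of_dvd_pow this)
        omega
      · apply hN2
        rw [e, card_top, h]; norm_num
    refine S3277.result x hx (by rw [hc]) ?_ hnc ?_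
    · intro c hcC
      rw [hCP] at hcC
      by_contra hne
      -- cyclic Sylow
      apply hnc
      refine H18.Hsub.npc_of_cyclic (fun q hq _ => hq.two_le) P ?_
      have ho : orderOf (⟨c, hcC⟩ : (P : Subgroup G)) = 4 := by
        have h5 : orderOf (⟨c, hcC⟩ : (P : Subgroup G)) ∣ 4 := by rw [← hP]; exact orderOf_dvd_natCard _
        have h6 : ¬ orderOf (⟨c, hcC⟩ : (P : Subgroup G)) ∣ 2 := by
          intro h7
          exact hne (congrArg Subtype.val (orderOf_dvd_iff_pow_eq_one.1 h7))
        have h8 : orderOf (⟨c, hcC⟩ : (P : Subgroup G)) ≤ 4 := Nat.le_of_dvd (by norm_num) h5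
        obtain ⟨n, hn⟩ : ∃ n, n = orderOf (⟨c, hcC⟩ : (P : Subgroup G)) := ⟨_, rfl⟩
        rw [← hn] at h5 h6 h8 ⊢
        interval_cases n
        · omega
        · exact absurd (one_dvd 2) h6
        · exact absurd dvd_rfl h6
        · omega
        · rfl
      exact isCyclic_of_orderOf_eq_card (⟨c, hcC⟩ : (P : Subgroup G)) (by rw [ho, hP])
    · intro E hE _
      rcases hE.eq_bot_or_eq_top with e | e
      · rw [e, card_bot]; omega
      · rw [e, card_top, h]; omega
  · -- index five
    have hi' : (centralizer ({x} : Set G)).index = 5 := by rw [← hi]; omega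
    have hex := H9.Small.exists_alt hG _ hCne
    rw [hi'] at hex
    obtain ⟨f, hf⟩ := hex
    have hb : Function.Bijective f := (Nat.bijective_iff_injective_and_card f).2 ⟨hf, by rw [h, hA]⟩
    exact ⟨MulEquiv.ofBijective f hb⟩

/-- small orders are solvable -/
theorem solv_of_dvd_60 {G : Type*} [Group G] [Finite G] (h : Nat.card G ∣ 60) (hne : Nat.card G ≠ 60) :
    Group.IsSolvable G := by
  have h1 : Nat.card G ≤ 60 := Nat.le_of_dvd (by norm_num) h
  have h2 : 0 < Nat.card G := Nat.card_pos
  by_cases h30 : Nat.card G = 30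
  · haveI : IsZGroup G := IsZGroup.of_squarefree (by
      rw [h30]
      have : (30 : ℕ) = 2 * (3 * 5) := by norm_num
      rw [this]
      refine (Nat.squarefree_mul (by norm_num)).2 ⟨Nat.prime_two.squarefree, ?_⟩
      exact (Nat.squarefree_mul (by norm_num)).2 ⟨Nat.prime_three.squarefree, Nat.prime_five.squarefree⟩)
    infer_instance
  have : ∃ p q a b : ℕ, p.Prime ∧ q.Prime ∧ Nat.card G = p ^ a * q ^ b := by
    obtain ⟨n, hn⟩ : ∃ n, n = Nat.card G := ⟨_, rfl⟩
    rw [← hn] at h h1 h2 hne h30 ⊢
    have hd : n ∈ Nat.divisors 60 := Nat.mem_divisors.2 ⟨h, by norm_num⟩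
    have : Nat.divisors 60 = {1, 2, 3, 4, 5, 6, 10, 12, 15, 20, 30, 60} := by decide +kernel
    rw [this] at hd
    simp only [Finset.mem_insert, Finset.mem_singleton] at hd
    rcases hd with rfl | rfl | rfl | rfl | rfl | rfl | rfl | rfl | rfl | rfl | rfl | rfl
    · exact ⟨2, 3, 0, 0, by norm_num, by norm_num, by norm_num⟩
    · exact ⟨2, 3, 1, 0, by norm_num, by norm_num, by norm_num⟩
    · exact ⟨2, 3, 0, 1, by norm_num, by norm_num, by norm_num⟩
    · exact ⟨2, 3, 2, 0, by norm_num, by norm_num, by norm_num⟩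
    · exact ⟨2, 5, 0, 1, by norm_num, by norm_num, by norm_num⟩
    · exact ⟨2, 3, 1, 1, by norm_num, by norm_num, by norm_num⟩
    · exact ⟨2, 5, 1, 1, by norm_num, by norm_num, by norm_num⟩
    · exact ⟨2, 3, 2, 1, by norm_num, by norm_num, by norm_num⟩
    · exact ⟨3, 5, 1, 1, by norm_num, by norm_num, by norm_num⟩
    · exact ⟨2, 5, 2, 1, by norm_num, by norm_num, by norm_num⟩
    · exact absurd rfl h30
    · exact absurd rfl hne
  obtain ⟨p, q, a, b, hp, hq, hab⟩ := this
  exact H3.Burnside.burnside _ G p q a b hp hq rfl hab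

/-- nonsolvable groups of order 60 -/
theorem a5_of_nonsolv {G : Type*} [Group G] [Finite G] (h : Nat.card G = 60) (hns : ¬ Group.IsSolvable G) :
    Nonempty (G ≃* alternatingGroup (Fin 5)) := by
  haveI : Nontrivial G := by
    rw [← Finite.one_lt_card_iff_nontrivial, h]; norm_num
  haveI : IsSimpleGroup G := by
    constructor
    intro N hN
    by_contra hcon
    push Not at hcon
    apply hns
    have hmul := N.card_mul_index
    rw [h] at hmul
    have h1 : Group.IsSolvable N := by
      apply solv_of_dvd_60 ⟨N.index, hmul.symm⟩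
      intro e
      apply hcon.2
      exact Subgroup.eq_top_of_card_eq N (by rw [e, h])
    have h2 : Group.IsSolvable (G ⧸ N) := by
      apply solv_of_dvd_60
      · exact ⟨Nat.card N, by rw [mul_comm]; exact hmul.symm⟩
      · intro e
        apply hcon.1
        have e' : N.index = 60 := e
        rw [e'] at hmul
        exact Subgroup.card_eq_one.1 (by omega)
    exact (Group.isSolvable_iff_subgroup_quotient N).2 ⟨h1, h2⟩
  exact a5_of_60 h

/-- nonsolvable groups of order 120 with quaternion Sylow two-subgroups -/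
theorem sl25_of_120 {G : Type*} [Group G] [Finite G] (h : Nat.card G = 120) (hns : ¬ Group.IsSolvable G)
    (hS : ∀ P : Sylow 2 G, Nonempty ((P : Subgroup G) ≃* QuaternionGroup 2)) :
    Nonempty (G ≃* Matrix.SpecialLinearGroup (Fin 2) (ZMod 5)) := by
  classical
  haveI : Fact (Nat.Prime 2) := ⟨Nat.prime_two⟩
  -- uniqueness of involutions in a 2-subgroup
  have huni : ∀ Q : Subgroup G, IsPGroup 2 Q → ∀ a ∈ Q, ∀ b ∈ Q, a * a = 1 → a ≠ 1 → b * b = 1 → b ≠ 1 → a = b := by
    intro Q hQ a ha b hb ha2 ha1 hb2 hb1
    obtain ⟨P, hP⟩ := hQ.exists_le_sylow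
    obtain ⟨e⟩ := hS P
    have h1 := H20.AutQ8.unique_invol (e ⟨a, hP ha⟩) (by
      intro h
      apply ha1
      have := e.injective (h.trans (map_one e).symm)
      exact congrArg Subtype.val this) (by
      rw [← map_mul]
      have : (⟨a, hP ha⟩ : (P : Subgroup G)) * ⟨a, hP ha⟩ = 1 := Subtype.ext ha2
      rw [this, map_one])
    have h2 := H20.AutQ8.unique_invol (e ⟨b, hP hb⟩) (by
      intro h
      apply hb1
      have := e.injective (h.trans (map_one e).symm)
      exact congrArg Subtype.val this) (by
      rw [← map_mul]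
      have : (⟨b, hP hb⟩ : (P : Subgroup G)) * ⟨b, hP hb⟩ = 1 := Subtype.ext hb2
      rw [this, map_one])
    exact congrArg Subtype.val (e.injective (h1.trans h2.symm))
  have huni2 : ∀ a b : G, a * a = 1 → a ≠ 1 → b * b = 1 → b ≠ 1 → a * b = b * a → a = b := by
    intro a b ha2 ha1 hb2 hb1 hab
    apply huni (closure ({a, b} : Set G)) ?_ a (subset_closure (by simp)) b (subset_closure (by simp)) ha2 ha1 hb2 hb1
    have hle : closure ({a, b} : Set G) ≤
        { carrier := {g | (g = 1 ∨ g = a) ∨ (g = b ∨ g = a * b)}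
          one_mem' := Or.inl (Or.inl rfl)
          mul_mem' := by
            have e1 : b * a = a * b := hab.symm
            have e2 : a * (a * b) = b := by rw [← mul_assoc, ha2, one_mul]
            have e3 : b * (a * b) = a := by rw [hab, ← mul_assoc, hb2, one_mul]
            have e4 : (a * b) * a = b := by rw [hab, mul_assoc, ha2, mul_one]
            have e5 : (a * b) * b = a := by rw [mul_assoc, hb2, mul_one]
            have e6 : (a * b) * (a * b) = 1 := by rw [← mul_assoc, e4, hb2]
            rintro x y ((rfl | rfl) | (rfl | rfl)) ((rfl | rfl) | (rfl | rfl)) <;>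
              simp [ha2, hb2, e1, e2, e3, e4, e5, e6]
          inv_mem' := by
            have ia : a⁻¹ = a := inv_eq_of_mul_eq_one_left ha2
            have ib : b⁻¹ = b := inv_eq_of_mul_eq_one_left hb2
            rintro x ((rfl | rfl) | (rfl | rfl))
            · simp
            · simp [ia]
            · simp [ib]
            · simp [ia, ib, hab] : Subgroup G } := by
      rw [closure_le]
      intro w hw
      simp only [Set.mem_insert_iff, Set.mem_singleton_iff] at hw
      rcases hw with rfl | rfl
      · exact Or.inl (Or.inr rfl)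
      · exact Or.inr (Or.inl rfl)
    rintro ⟨g, hg⟩
    refine ⟨1, Subtype.ext ?_⟩
    change g ^ 2 ^ 1 = 1
    rw [pow_one, pow_two]
    rcases hle hg with (rfl | rfl) | (rfl | rfl)
    · rw [one_mul]
    · exact ha2
    · exact hb2
    · calc a * b * (a * b) = a * (b * a) * b := by group
        _ = a * (a * b) * b := by rw [hab]
        _ = (a * a) * (b * b) := by group
        _ = 1 := by rw [ha2, hb2, one_mul]
  -- an involution
  obtain ⟨z, hz⟩ := exists_prime_orderOf_dvd_card' (G := G) 2 (by rw [h]; norm_num)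
  have z2 : z * z = 1 := by rw [← pow_two, ← hz]; exact pow_orderOf_eq_one z
  have z1 : z ≠ 1 := by
    rintro rfl
    rw [orderOf_one] at hz
    omega
  have hiso : Cfsg.IsIsolatedInvolution z := by
    refine ⟨hz, fun g hc => ?_⟩
    apply huni2
    · calc g * z * g⁻¹ * (g * z * g⁻¹) = g * (z * z) * g⁻¹ := by group
        _ = 1 := by rw [z2]; group
    · intro e
      apply z1
      have : z = g⁻¹ * (g * z * g⁻¹) * g := by group
      rw [this, e]; group
    · exact z2
    · exact z1
    · exact hc.symm
  -- the odd core is trivial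
  have hO : oddCore G = ⊥ := by
    by_contra hne
    apply hns
    haveI hN : (oddCore G).Normal := H1.Nilp.pPrimeCore_normal 2
    have hcop : (Nat.card (oddCore G)).Coprime 2 := H1.Nilp.pPrimeCore_coprime 2
    have hmul := (oddCore G).card_mul_index
    rw [h] at hmul
    have h15 : Nat.card (oddCore G) ∣ 15 := by
      have h1 : Nat.card (oddCore G) ∣ 2 ^ 3 * 15 := ⟨(oddCore G).index, by rw [hmul]; norm_num⟩
      exact (Nat.Coprime.pow_right 3 hcop).dvd_of_dvd_mul_left h1
    have hcne : Nat.card (oddCore G) ≠ 1 := fun e => hne (Subgroup.card_eq_one.1 e)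
    have hs1 : Group.IsSolvable (oddCore G) := by
      apply solv_of_dvd_60 (h15.trans (by norm_num))
      intro e
      rw [e] at h15
      exact absurd (Nat.le_of_dvd (by norm_num) h15) (by norm_num)
    have hs2 : Group.IsSolvable (G ⧸ oddCore G) := by
      have hcq : Nat.card (G ⧸ oddCore G) = (oddCore G).index := rfl
      obtain ⟨n, hn⟩ : ∃ n, n = Nat.card (oddCore G) := ⟨_, rfl⟩
      rw [← hn] at h15 hcne hmul
      have hle : n ≤ 15 := Nat.le_of_dvd (by norm_num) h15
      have hd : n ∈ Nat.divisors 15 := Nat.mem_divisors.2 ⟨h15, by norm_num⟩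
      have : Nat.divisors 15 = {1, 3, 5, 15} := by decide +kernel
      rw [this] at hd
      simp only [Finset.mem_insert, Finset.mem_singleton] at hd
      rcases hd with e | e | e | e
      · exact absurd e hcne
      · have hi : (oddCore G).index = 40 := by rw [e] at hmul; omega
        exact H3.Burnside.burnside _ (G ⧸ oddCore G) 2 5 3 1 Nat.prime_two Nat.prime_five rfl (by rw [hcq, hi]; norm_num)
      · have hi : (oddCore G).index = 24 := by rw [e] at hmul; omega
        exact H3.Burnside.burnside _ (G ⧸ oddCore G) 2 3 3 1 Nat.prime_two Nat.prime_three rfl (by rw [hcq, hi]; norm_num)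
      · have hi : (oddCore G).index = 8 := by rw [e] at hmul; omega
        exact H3.Burnside.burnside _ (G ⧸ oddCore G) 2 3 3 0 Nat.prime_two Nat.prime_three rfl (by rw [hcq, hi]; norm_num)
    exact (Group.isSolvable_iff_subgroup_quotient (oddCore G)).2 ⟨hs1, hs2⟩
  have hzc : ∀ g : G, z * g = g * z := by
    intro g
    have := H4.ZStar.zstar hiso g
    rw [hO, mem_bot] at this
    have h1 : z * g * z⁻¹ * g⁻¹ = 1 := this
    calc z * g = (z * g * z⁻¹ * g⁻¹) * (g * z) := by group
      _ = g * z := by rw [h1, one_mul]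
  have huniq : ∀ g : G, g * g = 1 → g = 1 ∨ g = z := by
    intro g hg
    by_cases hg1 : g = 1
    · exact Or.inl hg1
    · exact Or.inr (huni2 g z hg hg1 z2 z1 (hzc g).symm)
  -- the quotient
  haveI hN : (zpowers z).Normal := by
    constructor
    rintro _ ⟨k, rfl⟩ g
    have : Commute g (z ^ k) := (show Commute g z from (hzc g).symm).zpow_right k
    refine ⟨k, ?_⟩
    change z ^ k = g * z ^ k * g⁻¹
    rw [this.eq, mul_assoc, mul_inv_cancel, mul_one]
  have hcz : Nat.card (zpowers z) = 2 := by rw [Nat.card_zpowers, hz]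
  have hq : Nat.card (G ⧸ zpowers z) = 60 := by
    have hmul := (zpowers z).card_mul_index
    rw [h, hcz] at hmul
    change (zpowers z).index = 60
    omega
  obtain ⟨e⟩ := a5_of_nonsolv hq (by
    intro hs
    apply hns
    have : Group.IsSolvable (zpowers z) := Group.isSolvable_of_comm (fun a b => by
      letI := IsCyclic.commGroup (α := zpowers z)
      exact mul_comm a b)
    exact (Group.isSolvable_iff_subgroup_quotient (zpowers z)).2 ⟨this, hs⟩)
  refine sl25_of_cover (e.toMonoidHom.comp (QuotientGroup.mk' (zpowers z)))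
    (e.surjective.comp (QuotientGroup.mk'_surjective _)) (z := z) ?_ z1 z2 huniq
  intro g
  have h1 : (e.toMonoidHom.comp (QuotientGroup.mk' (zpowers z))) g = 1 ↔ g ∈ zpowers z := by
    rw [← QuotientGroup.eq_one_iff]
    exact map_eq_one_iff e e.injective
  rw [h1, mem_zp z2]

end Cfsg.Agent.H24.Zas
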