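import Mathlib
import Cfsg.Agent.H24_Zas13

/-! Groups of order 12 and 24 with a self-centralizing normal four-group. -/

namespace Cfsg.Agent.H24.Zas

open Subgroup Cfsg
open scoped Pointwise commutatorElement

theorem klein_hom {X : Type*} [Group X] [Finite X] (V : Subgroup X) [hVn : V.Normal] (hV2 : ∀ v ∈ V, v * v = 1)
    (hV4 : Nat.card V = 4) (hCV : centralizer (V : Set X) ≤ V) (hX : Nat.card X = 12 ∨ Nat.card X = 24) :
    ∃ ψ : X →* Equiv.Perm (Fin 4), Function.Injective ψ := by
  classical
  haveI : Fact (Nat.Prime 3) := ⟨Nat.prime_three⟩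
  obtain ⟨P⟩ : Nonempty (Sylow 3 X) := inferInstance
  have hf : (Nat.card X).factorization 3 = 1 := by
    rcases hX with h | h
    · rw [h, show (12 : ℕ) = 3 ^ 1 * 4 by norm_num, Nat.factorization_mul (by norm_num) (by norm_num),
        Nat.Prime.factorization_pow Nat.prime_three]
      simp [Nat.factorization_eq_zero_of_not_dvd (show ¬ 3 ∣ 4 by norm_num)]
    · rw [h, show (24 : ℕ) = 3 ^ 1 * 8 by norm_num, Nat.factorization_mul (by norm_num) (by norm_num),
        Nat.Prime.factorization_pow Nat.prime_three]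
      simp [Nat.factorization_eq_zero_of_not_dvd (show ¬ 3 ∣ 8 by norm_num)]
  have hP : Nat.card (P : Subgroup X) = 3 := by rw [P.card_eq_multiplicity, hf, pow_one]
  obtain ⟨⟨x, hxP⟩, hx⟩ := exists_prime_orderOf_dvd_card' (G := (P : Subgroup X)) 3 (by rw [hP])
  rw [Subgroup.orderOf_mk] at hx
  have hx3 : x ^ 3 = 1 := by rw [← hx]; exact pow_orderOf_eq_one x
  have hx1 : x ≠ 1 := by
    rintro rfl
    rw [orderOf_one] at hx
    omega
  have hxV : x ∉ V := by
    intro h
    have h1 := hV2 x h
    rw [pow_three, h1, mul_one] at hx3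
    exact hx1 hx3
  -- no fixed points
  have hfix : ∀ v ∈ V, x * v = v * x → v = 1 := by
    intro v hv hxv
    by_contra hv1
    apply hxV
    apply hCV
    rw [mem_centralizer_iff]
    intro w hw
    change w * x = x * w
    by_cases hw1 : w = 1
    · rw [hw1, one_mul, mul_one]
    by_cases hwv : w = v
    · rw [hwv]; exact hxv.symm
    have hvw1 : v * w ≠ 1 := by
      intro e
      apply hwv
      have : v * (v * w) = v := by rw [e, mul_one]
      rw [← mul_assoc, hV2 v hv, one_mul] at this
      exact this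
    have hset : (V : Set X) = ({1, v, w, v * w} : Finset X) := by
      symm
      refine Set.eq_of_subset_of_ncard_le ?_ ?_ (Set.toFinite _)
      · intro y hy
        simp only [Finset.coe_insert, Finset.coe_singleton, Set.mem_insert_iff, Set.mem_singleton_iff] at hy
        rcases hy with rfl | rfl | rfl | rfl
        · exact one_mem V
        · exact hv
        · exact hw
        · exact mul_mem hv hw
      · rw [Set.ncard_coe_finset]
        have h1 : (V : Set X).ncard = 4 := by rw [← hV4]; rfl
        rw [h1]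
        rw [Finset.card_insert_of_notMem, Finset.card_insert_of_notMem, Finset.card_insert_of_notMem,
          Finset.card_singleton]
        · simp only [Finset.mem_singleton]
          intro e
          apply hv1
          have : 1 * w = v * w := by rw [one_mul]; exact e
          exact (mul_right_cancel this).symm
        · simp only [Finset.mem_insert, Finset.mem_singleton, not_or]
          refine ⟨fun e => hwv e.symm, fun e => ?_⟩
          apply hw1
          have : v * 1 = v * w := by rw [mul_one]; exact e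
          exact (mul_left_cancel this).symm
        · simp only [Finset.mem_insert, Finset.mem_singleton, not_or]
          exact ⟨fun e => hv1 e.symm, fun e => hw1 e.symm, fun e => hvw1 e.symm⟩
    have hw' : x * w * x⁻¹ ∈ (V : Set X) := hVn.conj_mem w hw x
    rw [hset] at hw'
    simp only [Finset.coe_insert, Finset.coe_singleton, Set.mem_insert_iff, Set.mem_singleton_iff] at hw'
    rcases hw' with e | e | e | e
    · exfalso
      apply hw1
      have : w = x⁻¹ * (x * w * x⁻¹) * x := by group
      rw [this, e]; group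
    · exfalso
      apply hwv
      have : w = x⁻¹ * (x * w * x⁻¹) * x := by group
      rw [this, e, mul_assoc, ← hxv]; group
    · rw [mul_inv_eq_iff_eq_mul] at e
      exact e.symm
    · -- `x²` commutes with `w`
      have e2 : x ^ 2 * w * (x ^ 2)⁻¹ = w := by
        calc x ^ 2 * w * (x ^ 2)⁻¹ = x * (x * w * x⁻¹) * x⁻¹ := by rw [pow_two]; group
          _ = x * (v * w) * x⁻¹ := by rw [e]
          _ = (x * v * x⁻¹) * (x * w * x⁻¹) := by group
          _ = v * (v * w) := by rw [e, hxv, mul_inv_cancel_right]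
          _ = w := by rw [← mul_assoc, hV2 v hv, one_mul]
      have e3 : Commute (x ^ 2) w := by
        rw [mul_inv_eq_iff_eq_mul] at e2
        exact e2
      have e4 : Commute (x ^ 4) w := by
        have : x ^ 4 = (x ^ 2) ^ 2 := by rw [← pow_mul]
        rw [this]; exact e3.pow_left 2
      have e5 : x ^ 4 = x := by rw [pow_succ, hx3, one_mul]
      rw [e5] at e4
      exact e4.symm.eq
  -- normalizer
  have hPV : (P : Subgroup X) ⊓ V = ⊥ := by
    rw [← disjoint_iff]
    exact Subgroup.disjoint_of_coprime_natCard (by rw [hP, hV4]; norm_num)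
  have hNV : ∀ v ∈ V, v ∈ normalizer (P : Set X) → v = 1 := by
    intro v hv hvN
    apply hfix v hv
    have h1 : v * x * v⁻¹ ∈ (P : Subgroup X) := (mem_normalizer_iff.1 hvN x).1 hxP
    have h2 : v * x * v⁻¹ * x⁻¹ ∈ (P : Subgroup X) ⊓ V := by
      refine mem_inf.2 ⟨mul_mem h1 (inv_mem hxP), ?_⟩
      have : v * x * v⁻¹ * x⁻¹ = v * (x * v⁻¹ * x⁻¹) := by group
      rw [this]
      exact mul_mem hv (hVn.conj_mem _ (inv_mem hv) x)
    rw [hPV, mem_bot] at h2
    calc x * v = (v * x * v⁻¹ * x⁻¹)⁻¹ * (v * x) := by group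
      _ = v * x := by rw [h2, inv_one, one_mul]
  -- number of Sylow subgroups
  have hn : Nat.card (Sylow 3 X) = 4 := by
    have h1 := card_sylow_modEq_one 3 X
    have h2 := P.card_dvd_index
    have h3 := (P : Subgroup X).card_mul_index
    rw [hP] at h3
    have h4 : Nat.card (Sylow 3 X) ≠ 1 := by
      intro e
      have h5 : (normalizer (P : Set X)).index = 1 := by
        rw [← Sylow.card_eq_index_normalizer]; exact e
      have h6 := Subgroup.index_eq_one.1 h5
      obtain ⟨v, hv, hv1⟩ : ∃ v ∈ V, v ≠ 1 := by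
        by_contra hcon
        push Not at hcon
        have : V = ⊥ := by
          rw [eq_bot_iff]; intro v hv; rw [mem_bot]; exact hcon v hv
        rw [this, card_bot] at hV4
        omega
      exact hv1 (hNV v hv (by rw [h6]; trivial))
    obtain ⟨n, hn⟩ : ∃ n, n = Nat.card (Sylow 3 X) := ⟨_, rfl⟩
    rw [← hn] at h1 h2 h4 ⊢
    have h8 : (P : Subgroup X).index ∣ 8 := by
      rcases hX with h | h
      · have : (P : Subgroup X).index = 4 := by omega
        rw [this]; norm_num
      · have : (P : Subgroup X).index = 8 := by omega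
        rw [this]
    have h9 : n ∣ 8 := h2.trans h8
    have h10 : n ≤ 8 := Nat.le_of_dvd (by norm_num) h9
    unfold Nat.ModEq at h1
    interval_cases n <;> omega
  have e : Sylow 3 X ≃ Fin 4 := Finite.equivFinOfCardEq hn
  refine ⟨(e.permCongrHom.toMonoidHom).comp (MulAction.toPermHom X (Sylow 3 X)), ?_⟩
  refine (e.permCongrHom.injective).comp ?_
  rw [← MonoidHom.ker_eq_bot_iff, eq_bot_iff]
  have hkN : ∀ k ∈ (MulAction.toPermHom X (Sylow 3 X)).ker, k ∈ normalizer (P : Set X) := by
    intro k hk
    rw [MonoidHom.mem_ker] at hk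
    have := Equiv.ext_iff.1 hk P
    exact Sylow.smul_eq_iff_mem_normalizer.1 this
  intro k hk
  have hkV : k ∈ V := by
    apply hCV
    rw [mem_centralizer_iff]
    intro v hv
    change v * k = k * v
    have h1 : k * v * k⁻¹ * v⁻¹ ∈ V := mul_mem (hVn.conj_mem v hv k) (inv_mem hv)
    have h2 : k * v * k⁻¹ * v⁻¹ ∈ (MulAction.toPermHom X (Sylow 3 X)).ker := by
      have : k * v * k⁻¹ * v⁻¹ = k * (v * k⁻¹ * v⁻¹) := by group
      rw [this]
      exact mul_mem hk ((inferInstance : (MulAction.toPermHom X (Sylow 3 X)).ker.Normal).conj_mem _ (inv_mem hk) v)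
    have h3 := hNV _ h1 (hkN _ h2)
    calc v * k = (k * v * k⁻¹ * v⁻¹)⁻¹ * (k * v) := by group
      _ = k * v := by rw [h3, inv_one, one_mul]
  rw [mem_bot]
  exact hNV k hkV (hkN k hk)

theorem klein_24 {X : Type*} [Group X] [Finite X] (V : Subgroup X) [hVn : V.Normal] (hV2 : ∀ v ∈ V, v * v = 1)
    (hV4 : Nat.card V = 4) (hCV : centralizer (V : Set X) ≤ V) (hX : Nat.card X = 24) :
    Nonempty (X ≃* Equiv.Perm (Fin 4)) := by
  obtain ⟨ψ, hψ⟩ := klein_hom V hV2 hV4 hCV (Or.inr hX)
  have hb : Function.Bijective ψ := (Nat.bijective_iff_injective_and_card ψ).2 ⟨hψ, by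
    rw [hX, Nat.card_perm, Nat.card_fin]; rfl⟩
  exact ⟨MulEquiv.ofBijective ψ hb⟩

theorem klein_12 {X : Type*} [Group X] [Finite X] (V : Subgroup X) [hVn : V.Normal] (hV2 : ∀ v ∈ V, v * v = 1)
    (hV4 : Nat.card V = 4) (hCV : centralizer (V : Set X) ≤ V) (hX : Nat.card X = 12) :
    Nonempty (X ≃* alternatingGroup (Fin 4)) := by
  obtain ⟨ψ, hψ⟩ := klein_hom V hV2 hV4 hCV (Or.inl hX)
  have h1 : Nat.card ψ.range = 12 := by
    rw [← hX]; exact (Nat.card_congr (MonoidHom.ofInjective hψ).toEquiv).symm
  have h2 : ψ.range.index = 2 := by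
    have := ψ.range.card_mul_index
    rw [h1, Nat.card_perm, Nat.card_fin] at this
    have h3 : (4 : ℕ).factorial = 24 := rfl
    omega
  have h3 := Equiv.Perm.eq_alternatingGroup_of_index_eq_two h2
  rw [← h3]
  exact ⟨MonoidHom.ofInjective hψ⟩

end Cfsg.Agent.H24.Zas
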