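import Mathlib
import Cfsg.Agent.H10_ClsMul
import Cfsg.Agent.H10_BlockMax
import Cfsg.Agent.H10_BlockKer
import Cfsg.Agent.H3_Clifford

/-!
H25_Cca: principal blocks of central products.
-/

set_option autoImplicit false
set_option linter.unusedSectionVars false

open scoped ComplexConjugate

namespace Cfsg.Agent.H25.Cca

open Cfsg Cfsg.Agent.H3 Cfsg.Agent.H3.CharBasic Cfsg.Agent.H3.CharIrr Cfsg.Agent.H3.CharComplete
  Cfsg.Agent.H10.Char Cfsg.Agent.H10.BlockLoc Cfsg.Agent.H10.BlockAlg Cfsg.Agent.H10.BlockIdem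
  Cfsg.Agent.H10.PPart Cfsg.Agent.H10.BlockMax Cfsg.Agent.H10.BlockKer

section
variable {G : Type*} [Group G] [Fintype G] {p : ℕ} [hp : Fact p.Prime] {U₁ U₂ : Subgroup G}

/-- the product map -/
def pm (hcomm : ∀ u ∈ U₁, ∀ v ∈ U₂, u * v = v * u) : U₁ × U₂ →* G where
  toFun x := (x.1 : G) * (x.2 : G)
  map_one' := by simp
  map_mul' x y := by
    show (x.1 : G) * (y.1 : G) * ((x.2 : G) * (y.2 : G)) = (x.1 : G) * (x.2 : G) * ((y.1 : G) * (y.2 : G))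
    rw [mul_assoc, mul_assoc, ← mul_assoc (y.1 : G), hcomm _ y.1.2 _ x.2.2, mul_assoc]

variable (hcomm : ∀ u ∈ U₁, ∀ v ∈ U₂, u * v = v * u) (hgen : U₁ ⊔ U₂ = ⊤) (hZ : IsPGroup p ↥(U₁ ⊓ U₂))

theorem pm_apply (x : U₁ × U₂) : pm hcomm x = (x.1 : G) * (x.2 : G) := rfl

include hgen in
theorem pm_surj : Function.Surjective (pm hcomm) := by
  rw [← MonoidHom.range_eq_top, eq_top_iff, ← hgen]
  refine sup_le ?_ ?_
  · intro u hu
    exact ⟨(⟨u, hu⟩, 1), by rw [pm_apply]; simp⟩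
  · intro v hv
    exact ⟨(1, ⟨v, hv⟩), by rw [pm_apply]; simp⟩

include hcomm hgen in
theorem normal1 : U₁.Normal := by
  constructor
  intro u hu g
  obtain ⟨⟨a, b⟩, rfl⟩ := pm_surj hcomm hgen g
  rw [pm_apply]
  have h1 : (a : G) * (b : G) * u * ((a : G) * (b : G))⁻¹ = a * u * (a : G)⁻¹ := by
    rw [mul_inv_rev, mul_assoc (a : G), ← hcomm u hu _ b.2]
    group
  show (a : G) * (b : G) * u * ((a : G) * (b : G))⁻¹ ∈ U₁
  rw [h1]
  exact U₁.mul_mem (U₁.mul_mem a.2 hu) (U₁.inv_mem a.2)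

include hcomm hgen in
/-- decomposition of a p-regular element -/
theorem reg_dec {x : G} (hx : ¬ p ∣ orderOf x) : ∃ (u : U₁) (v : U₂), ¬ p ∣ orderOf u ∧ ¬ p ∣ orderOf v ∧ x = (u : G) * (v : G) := by
  obtain ⟨⟨a, b⟩, rfl⟩ := pm_surj hcomm hgen x
  rw [pm_apply] at hx ⊢
  obtain ⟨x1, y1, h1, hc1, hx1, hy1⟩ := exists_ppart (p := p) a
  obtain ⟨x2, y2, h2, hc2, hx2, hy2⟩ := exists_ppart (p := p) b
  refine ⟨y1, y2, hy1, hy2, ?_⟩
  have e : ∀ (s : U₁) (t : U₂), Commute (s : G) (t : G) := fun s t => hcomm _ s.2 _ t.2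
  have e1 : Commute (x1 : G) (y1 : G) := congrArg Subtype.val hc1
  have e2 : Commute (x2 : G) (y2 : G) := congrArg Subtype.val hc2
  have h3 : (1 : G) * ((a : G) * (b : G)) = ((x1 : G) * (x2 : G)) * ((y1 : G) * (y2 : G)) := by
    rw [one_mul, ← h1, ← h2]
    show ((x1 : G) * (y1 : G)) * ((x2 : G) * (y2 : G)) = _
    rw [mul_assoc, mul_assoc, ← mul_assoc (y1 : G), (e y1 x2).eq, mul_assoc]
  have h4 : Commute ((x1 : G) * (x2 : G)) ((y1 : G) * (y2 : G)) :=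
    ((e1.mul_right (e x1 y2)).mul_left (((e y1 x2).symm).mul_right e2))
  have h5 : ∃ k : ℕ, orderOf ((x1 : G) * (x2 : G)) = p ^ k := by
    obtain ⟨k1, hk1⟩ := hx1
    obtain ⟨k2, hk2⟩ := hx2
    have h61 : (x1 : G) ^ (p ^ k1) = 1 := by
      rw [← hk1, ← Subgroup.orderOf_coe]; exact pow_orderOf_eq_one _
    have h62 : (x2 : G) ^ (p ^ k2) = 1 := by
      rw [← hk2, ← Subgroup.orderOf_coe]; exact pow_orderOf_eq_one _
    have h6 : ((x1 : G) * (x2 : G)) ^ (p ^ (k1 + k2)) = 1 := by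
      rw [(e x1 x2).mul_pow, pow_add, pow_mul, h61, one_pow, one_mul, mul_comm (p ^ k1), pow_mul, h62, one_pow]
    obtain ⟨j, -, hj⟩ := (Nat.dvd_prime_pow hp.out).1 (orderOf_dvd_of_pow_eq_one h6)
    exact ⟨j, hj⟩
  have h7 : ¬ p ∣ orderOf ((y1 : G) * (y2 : G)) := by
    intro h
    have h8 := (h.trans (e y1 y2).orderOf_mul_dvd_lcm).trans (Nat.lcm_dvd_mul _ _)
    rcases hp.out.dvd_mul.1 h8 with h9 | h9
    · rw [Subgroup.orderOf_coe] at h9; exact hy1 h9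
    · rw [Subgroup.orderOf_coe] at h9; exact hy2 h9
  have h10 := parts_unique h3 (Commute.one_left _) h4 ⟨0, by rw [orderOf_one, pow_zero]⟩ h5 hx h7
  exact h10.2

include hcomm hZ in
theorem cent_comap {u : U₁} {v : U₂} (hu : ¬ p ∣ orderOf u) (hv : ¬ p ∣ orderOf v) :
    (Subgroup.centralizer ({(u : G) * (v : G)} : Set G)).comap (pm hcomm) =
      (Subgroup.centralizer ({u} : Set U₁)).prod (Subgroup.centralizer ({v} : Set U₂)) := by
  ext ⟨a, b⟩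
  rw [Subgroup.mem_comap, pm_apply, Subgroup.mem_prod, Subgroup.mem_centralizer_singleton_iff,
    Subgroup.mem_centralizer_singleton_iff, Subgroup.mem_centralizer_singleton_iff]
  have e : ∀ (s : U₁) (t : U₂), (s : G) * (t : G) = (t : G) * (s : G) := fun s t => hcomm _ s.2 _ t.2
  show (a : G) * (b : G) * ((u : G) * (v : G)) = (u : G) * (v : G) * ((a : G) * (b : G)) ↔ _
  have h0 : (a : G) * (b : G) * ((u : G) * (v : G)) = ((a * u : U₁) : G) * ((b * v : U₂) : G) := by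
    show _ = ((a : G) * (u : G)) * ((b : G) * (v : G))
    rw [mul_assoc, mul_assoc, ← mul_assoc (b : G), ← e u b, mul_assoc]
  have h0' : (u : G) * (v : G) * ((a : G) * (b : G)) = ((u * a : U₁) : G) * ((v * b : U₂) : G) := by
    show _ = ((u : G) * (a : G)) * ((v : G) * (b : G))
    rw [mul_assoc, mul_assoc, ← mul_assoc (v : G), ← e a v, mul_assoc]
  rw [h0, h0']
  constructor
  · intro h
    -- z = (u a)⁻¹ (a u) = (v b) (b v)⁻¹
    have h1 : ((u * a : U₁) : G)⁻¹ * ((a * u : U₁) : G) = ((v * b : U₂) : G) * ((b * v : U₂) : G)⁻¹ := by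
      rw [inv_mul_eq_iff_eq_mul, ← mul_assoc, ← h, mul_inv_cancel_right]
    have hz1 : ((u * a : U₁) : G)⁻¹ * ((a * u : U₁) : G) ∈ U₁ := U₁.mul_mem (U₁.inv_mem (u * a : U₁).2) (a * u : U₁).2
    have hz2 : ((u * a : U₁) : G)⁻¹ * ((a * u : U₁) : G) ∈ U₂ := by
      rw [h1]; exact U₂.mul_mem (v * b : U₂).2 (U₂.inv_mem (b * v : U₂).2)
    obtain ⟨z, hz⟩ : ∃ z : G, z = ((u * a : U₁) : G)⁻¹ * ((a * u : U₁) : G) := ⟨_, rfl⟩
    rw [← hz] at h1 hz1 hz2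
    have hzc : ∀ s ∈ U₁, s * z = z * s := fun s hs => hcomm s hs z hz2
    have hau : (a : G) * (u : G) = (u : G) * (a : G) * z := by
      rw [hz]
      show (a : G) * (u : G) = (u : G) * (a : G) * (((u : G) * (a : G))⁻¹ * ((a : G) * (u : G)))
      rw [mul_inv_cancel_left]
    have hconj : z * (u : G) = 1 * ((a : G) * (u : G) * (a : G)⁻¹) := by
      rw [one_mul, hau, mul_assoc (u : G) (a : G) z, hzc _ a.2, ← mul_assoc, mul_inv_cancel_right, hzc _ u.2]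
    have hzp : ∃ k : ℕ, orderOf z = p ^ k := by
      have hz12 : z ∈ U₁ ⊓ U₂ := ⟨hz1, hz2⟩
      obtain ⟨k, hk⟩ := (IsPGroup.iff_orderOf.1 hZ) ⟨z, hz12⟩
      rw [Subgroup.orderOf_mk] at hk
      exact ⟨k, hk⟩
    have h2 := parts_unique hconj (hzc _ u.2).symm (Commute.one_left _) hzp ⟨0, by rw [orderOf_one, pow_zero]⟩
      (by rwa [Subgroup.orderOf_coe]) (by rw [orderOf_conj, Subgroup.orderOf_coe]; exact hu)
    have hz0 : z = 1 := h2.1
    constructor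
    · apply Subtype.ext
      show (a : G) * (u : G) = (u : G) * (a : G)
      rw [hau, hz0, mul_one]
    · apply Subtype.ext
      rw [hz0] at h1
      exact (mul_inv_eq_one.1 h1.symm).symm
  · rintro ⟨h1, h2⟩
    rw [h1, h2]

include hcomm hgen hZ in
theorem index_mul {u : U₁} {v : U₂} (hu : ¬ p ∣ orderOf u) (hv : ¬ p ∣ orderOf v) :
    (Subgroup.centralizer ({(u : G) * (v : G)} : Set G)).index =
      (Subgroup.centralizer ({u} : Set U₁)).index * (Subgroup.centralizer ({v} : Set U₂)).index := by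
  rw [← Subgroup.index_comap_of_surjective _ (pm_surj hcomm hgen), cent_comap hcomm hZ hu hv, Subgroup.index_prod]

include hcomm hgen in
/-- the values of an irreducible character -/
theorem val_mul {χ : G → ℂ} (hχ : IsIrrCharacter G χ) (u : U₁) (v : U₂) :
    χ 1 * χ ((u : G) * (v : G)) = χ u * χ v := by
  have h1 := Cfsg.Agent.H10.ClsMul.conj_sum hχ (u : G) (v : G)
  have h2 : ∀ g : G, χ ((u : G) * (g * (v : G) * g⁻¹)) = χ ((u : G) * (v : G)) := by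
    intro g
    obtain ⟨⟨a, b⟩, rfl⟩ := pm_surj hcomm hgen g
    rw [pm_apply]
    have h3 : (u : G) * ((a : G) * (b : G) * (v : G) * ((a : G) * (b : G))⁻¹) = (b : G) * ((u : G) * (v : G)) * (b : G)⁻¹ := by
      have e1 : (a : G) * ((b : G) * (v : G) * (b : G)⁻¹) = ((b : G) * (v : G) * (b : G)⁻¹) * (a : G) :=
        hcomm _ a.2 _ (U₂.mul_mem (U₂.mul_mem b.2 v.2) (U₂.inv_mem b.2))
      have e2 : (u : G) * (b : G) = (b : G) * (u : G) := hcomm _ u.2 _ b.2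
      calc (u : G) * ((a : G) * (b : G) * (v : G) * ((a : G) * (b : G))⁻¹)
          = (u : G) * ((a : G) * ((b : G) * (v : G) * (b : G)⁻¹) * (a : G)⁻¹) := by group
        _ = (u : G) * ((b : G) * (v : G) * (b : G)⁻¹) := by rw [e1, mul_inv_cancel_right]
        _ = (u : G) * (b : G) * ((v : G) * (b : G)⁻¹) := by group
        _ = _ := by rw [e2]; group
    show χ ((u : G) * ((a : G) * (b : G) * (v : G) * ((a : G) * (b : G))⁻¹)) = _
    rw [h3]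
    exact IsIrr.isClass hχ _ _
  rw [Finset.sum_congr rfl fun g _ => h2 g, Finset.sum_const, Finset.card_univ, ← Nat.card_eq_fintype_card, nsmul_eq_mul] at h1
  have h4 : (Nat.card G : ℂ) ≠ 0 := Nat.cast_ne_zero.2 Nat.card_pos.ne'
  apply mul_left_cancel₀ h4
  rw [← h1]; ring

include hcomm hgen in
/-- the restriction is homogeneous -/
theorem val_res {χ : G → ℂ} (hχ : IsIrrCharacter G χ) [Fintype U₁] {ψ : U₁ → ℂ} (hψ : IsIrrCharacter U₁ ψ)
    (h0 : classInner (fun u : U₁ => χ u) ψ ≠ 0) (u : U₁) : χ u * ψ 1 = ψ u * χ 1 := by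
  have hN := normal1 hcomm hgen
  have hinv : ∀ g : G, Cfsg.Agent.H3.Clifford.cj hN g ψ = ψ := by
    intro g
    funext n
    obtain ⟨⟨a, b⟩, rfl⟩ := pm_surj hcomm hgen g
    rw [Cfsg.Agent.H3.Clifford.cj_apply]
    have h1 : (⟨pm hcomm (a, b) * n * (pm hcomm (a, b))⁻¹, hN.conj_mem n n.2 _⟩ : U₁) = a * n * a⁻¹ := by
      apply Subtype.ext
      show (a : G) * (b : G) * (n : G) * ((a : G) * (b : G))⁻¹ = (a : G) * (n : G) * (a : G)⁻¹
      rw [mul_inv_rev, mul_assoc (a : G), ← hcomm _ n.2 _ b.2]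
      group
    rw [h1]
    exact IsIrr.isClass hψ _ _
  have h2 := Cfsg.Agent.H3.Clifford.clifford_invariant hN hχ hψ h0 hinv
  have h3 : χ u = classInner (fun n : U₁ => χ n) ψ * ψ u := congrFun h2 u
  have h4 : χ 1 = classInner (fun n : U₁ => χ n) ψ * ψ 1 := congrFun h2 1
  rw [h4, h3]; ring

include hcomm hgen hZ in
theorem cch_mul {χ : G → ℂ} {ψ₁ : U₁ → ℂ} {ψ₂ : U₂ → ℂ} (hχ0 : χ 1 ≠ 0) (h10 : ψ₁ 1 ≠ 0) (h20 : ψ₂ 1 ≠ 0)
    {u : U₁} {v : U₂} (hu : ¬ p ∣ orderOf u) (hv : ¬ p ∣ orderOf v)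
    (e0 : χ 1 * χ ((u : G) * (v : G)) = χ u * χ v) (e1 : χ u * ψ₁ 1 = ψ₁ u * χ 1) (e2 : χ v * ψ₂ 1 = ψ₂ v * χ 1) :
    centralChar χ ((u : G) * (v : G)) = centralChar ψ₁ u * centralChar ψ₂ v := by
  unfold centralChar
  rw [index_mul hcomm hgen hZ hu hv, Nat.cast_mul]
  have h1 : χ ((u : G) * (v : G)) / χ 1 = (ψ₁ u / ψ₁ 1) * (ψ₂ v / ψ₂ 1) := by
    rw [← eq_div_iff h10] at e1
    rw [← eq_div_iff h20] at e2
    rw [e1, e2] at e0
    field_simp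
    field_simp at e0
    linear_combination e0
  rw [mul_div_assoc, h1]
  ring

theorem not_dvd_one {K : Type*} [Group K] : ¬ p ∣ orderOf (1 : K) := by
  rw [orderOf_one]; exact fun h => hp.out.one_lt.ne' (Nat.dvd_one.1 h)

theorem cch_one {K : Type*} [Group K] {χ : K → ℂ} (h : χ 1 ≠ 0) : centralChar χ 1 = 1 := by
  unfold centralChar
  have h1 : Subgroup.centralizer ({(1 : K)} : Set K) = ⊤ := by
    rw [eq_top_iff]
    intro x _
    rw [Subgroup.mem_centralizer_singleton_iff, mul_one, one_mul]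
  rw [h1, Subgroup.index_top, Nat.cast_one, one_mul, div_self h]

end

section
variable {G : Type*} [Group G] [Fintype G] {p : ℕ} [hp : Fact p.Prime] {M : Ideal AlgInt}

theorem dir1 (hM : IsPModular p M) {U₁ U₂ : Subgroup G} [Fintype U₁] [Fintype U₂]
    (hcomm : ∀ u ∈ U₁, ∀ v ∈ U₂, u * v = v * u) (hgen : U₁ ⊔ U₂ = ⊤) (hZ : IsPGroup p ↥(U₁ ⊓ U₂))
    {χ : IrrCharacter G} {ψ₁ : IrrCharacter U₁} {ψ₂ : IrrCharacter U₂}
    (h₁ : classInner (fun u : U₁ => (χ : G → ℂ) u) (ψ₁ : U₁ → ℂ) ≠ 0)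
    (h₂ : classInner (fun u : U₂ => (χ : G → ℂ) u) (ψ₂ : U₂ → ℂ) ≠ 0) (h : χ ∈ principalBlock M G) :
    ψ₁ ∈ principalBlock M U₁ := by
  haveI := hM.2.1
  have h' : SameBlock M (fun _ : G => 1) (χ : G → ℂ) := h
  refine sameBlock_of_regular hM (χ := triv U₁) (φ := ψ₁) fun u hu => ?_
  rw [om_cs, om_cs]
  have hcomm' : ∀ u ∈ U₂, ∀ v ∈ U₁, u * v = v * u := fun u hu v hv => (hcomm v hv u hu).symm
  have hgen' : U₂ ⊔ U₁ = ⊤ := by rw [sup_comm]; exact hgen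
  have h3 := cch_mul hcomm hgen hZ (IsIrr.one_ne_zero χ.2) (IsIrr.one_ne_zero ψ₁.2) (IsIrr.one_ne_zero ψ₂.2)
    hu (not_dvd_one (p := p) (K := U₂)) (val_mul hcomm hgen χ.2 u 1) (val_res hcomm hgen χ.2 ψ₁.2 h₁ u)
    (val_res hcomm' hgen' χ.2 ψ₂.2 h₂ 1)
  have h4 := cch_mul (χ := fun _ : G => (1 : ℂ)) (ψ₁ := fun _ => 1) (ψ₂ := fun _ => 1) hcomm hgen hZ one_ne_zero one_ne_zero one_ne_zero
    hu (not_dvd_one (p := p) (K := U₂)) rfl rfl rfl
  rw [cch_one (IsIrr.one_ne_zero ψ₂.2), mul_one] at h3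
  rw [cch_one (one_ne_zero), mul_one] at h4
  have h5 := h' ((u : G) * ((1 : U₂) : G))
  rw [h3, h4] at h5
  exact h5

theorem dir2 (hM : IsPModular p M) {U₁ U₂ : Subgroup G} [Fintype U₁] [Fintype U₂]
    (hcomm : ∀ u ∈ U₁, ∀ v ∈ U₂, u * v = v * u) (hgen : U₁ ⊔ U₂ = ⊤) (hZ : IsPGroup p ↥(U₁ ⊓ U₂))
    {χ : IrrCharacter G} {ψ₁ : IrrCharacter U₁} {ψ₂ : IrrCharacter U₂}
    (h₁ : classInner (fun u : U₁ => (χ : G → ℂ) u) (ψ₁ : U₁ → ℂ) ≠ 0)
    (h₂ : classInner (fun u : U₂ => (χ : G → ℂ) u) (ψ₂ : U₂ → ℂ) ≠ 0) (hb1 : ψ₁ ∈ principalBlock M U₁)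
    (hb2 : ψ₂ ∈ principalBlock M U₂) : χ ∈ principalBlock M G := by
  haveI := hM.2.1
  have hb1' : SameBlock M (fun _ : U₁ => 1) (ψ₁ : U₁ → ℂ) := hb1
  have hb2' : SameBlock M (fun _ : U₂ => 1) (ψ₂ : U₂ → ℂ) := hb2
  refine sameBlock_of_regular hM (χ := triv G) (φ := χ) fun g hg => ?_
  rw [om_cs, om_cs]
  have hcomm' : ∀ u ∈ U₂, ∀ v ∈ U₁, u * v = v * u := fun u hu v hv => (hcomm v hv u hu).symm
  have hgen' : U₂ ⊔ U₁ = ⊤ := by rw [sup_comm]; exact hgen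
  obtain ⟨u, v, hu, hv, rfl⟩ := reg_dec hcomm hgen hg
  have h3 := cch_mul hcomm hgen hZ (IsIrr.one_ne_zero χ.2) (IsIrr.one_ne_zero ψ₁.2) (IsIrr.one_ne_zero ψ₂.2)
    hu hv (val_mul hcomm hgen χ.2 u v) (val_res hcomm hgen χ.2 ψ₁.2 h₁ u)
    (val_res hcomm' hgen' χ.2 ψ₂.2 h₂ v)
  have h4 := cch_mul (χ := fun _ : G => (1 : ℂ)) (ψ₁ := fun _ => 1) (ψ₂ := fun _ => 1) hcomm hgen hZ one_ne_zero one_ne_zero one_ne_zero
    hu hv rfl rfl rfl
  rw [h3]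
  show MemLocalIdeal M (centralChar (fun _ : G => (1 : ℂ)) ((u : G) * (v : G)) - _)
  rw [h4]
  have e : centralChar (fun _ : U₁ => (1:ℂ)) u * centralChar (fun _ : U₂ => (1:ℂ)) v - centralChar (ψ₁ : U₁ → ℂ) u * centralChar (ψ₂ : U₂ → ℂ) v =
      centralChar (fun _ : U₁ => (1:ℂ)) u * (centralChar (fun _ : U₂ => (1:ℂ)) v - centralChar (ψ₂ : U₂ → ℂ) v) +
      (centralChar (fun _ : U₁ => (1:ℂ)) u - centralChar (ψ₁ : U₁ → ℂ) u) * centralChar (ψ₂ : U₂ → ℂ) v := by ring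
  rw [e]
  refine ideal_add (ideal_mul_left ?_ (hb2' v)) (ideal_mul_right (hb1' u) ?_)
  · have := om_cs_mem (M := M) (triv U₁) u
    rw [om_cs] at this
    exact this
  · have := om_cs_mem (M := M) ψ₂ v
    rw [om_cs] at this
    exact this

end

end Cfsg.Agent.H25.Cca
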