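import Cfsg.Agent.H25_AbSec2
import Cfsg.Agent.H25_Sub8

/-! The sum of the contributions of all subsections. -/

open scoped ComplexConjugate

namespace Cfsg.Agent.H25.CenSec

open Cfsg Cfsg.Agent.H3 Cfsg.Agent.H3.CharBasic Cfsg.Agent.H3.CharIrr Cfsg.Agent.H3.CharComplete
  Cfsg.Agent.H25.Brauer Cfsg.Agent.H25.BrauerP Cfsg.Agent.H25.Elem
  Cfsg.Agent.H10.Char Cfsg.Agent.H10.BlockLoc Cfsg.Agent.H10.BlockAlg Cfsg.Agent.H10.BlockIdem
  Cfsg.Agent.H10.BlockOrth Cfsg.Agent.H10.BlockHZ Cfsg.Agent.H10.BlockInd Cfsg.Agent.H10.PPart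
  Cfsg.Agent.H10.BlockSMT Cfsg.Agent.H10.BlockSMT2 Cfsg.Agent.H10.BlockPrin Cfsg.Agent.H10.BlockDefect
  Cfsg.Agent.H25.BlockReg Cfsg.Agent.H25.BlockReg2 Cfsg.Agent.H25.BlockReg3 Cfsg.Agent.H25.IndCong
  Cfsg.Agent.H25.Sub Cfsg.Agent.H25.Sub2 Cfsg.Agent.H25.Avg Cfsg.Agent.H3.CharGal
  Cfsg.Agent.H25.Sub3 Cfsg.Agent.H25.Sub4 Cfsg.Agent.H25.Sub5 Cfsg.Agent.H25.Sub6 Cfsg.Agent.H25.Sub7
  Cfsg.Agent.H25.AbSec2

variable {p : ℕ} {M : Ideal AlgInt}

section
variable {G : Type*} [Group G] [Fintype G] [hp : Fact p.Prime] {x : G}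
  [Fintype (Subgroup.centralizer ({x} : Set G))]
  [Fintype (IrrCharacter G)]
  [Fintype (IrrCharacter (Subgroup.centralizer ({x} : Set G)))]

open Classical in
theorem bp_orth (hM : IsPModular p M)
    {b b' : Set (IrrCharacter (Subgroup.centralizer ({x} : Set G)))} (hb : IsPBlock M b)
    (hb' : IsPBlock M b') (hne : b ≠ b') (χ ψ : IrrCharacter G) :
    ∑ y : Subgroup.centralizer ({x} : Set G), (if p ∣ orderOf y then 0 else
      bp x b (χ : G → ℂ) y * conj (bp x b' (ψ : G → ℂ) y)) = 0 := by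
  haveI := hM.2.1
  have h1 : ∀ y : Subgroup.centralizer ({x} : Set G), (if p ∣ orderOf y then 0 else
      bp x b (χ : G → ℂ) y * conj (bp x b' (ψ : G → ℂ) y)) =
      ∑ φ : IrrCharacter (Subgroup.centralizer ({x} : Set G)),
      ∑ φ' : IrrCharacter (Subgroup.centralizer ({x} : Set G)),
      if φ ∈ b ∧ φ' ∈ b' then ((aa (Subgroup.centralizer ({x} : Set G)) χ φ : ℂ) * zl (zz x) φ) *
        conj ((aa (Subgroup.centralizer ({x} : Set G)) ψ φ' : ℂ) * zl (zz x) φ') *
        (if ¬ p ∣ orderOf y then (φ : Subgroup.centralizer ({x} : Set G) → ℂ) y *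
          conj ((φ' : Subgroup.centralizer ({x} : Set G) → ℂ) y) else 0) else 0 := by
    intro y
    by_cases hy : p ∣ orderOf y
    · rw [if_pos hy]
      symm
      refine Finset.sum_eq_zero fun φ _ => Finset.sum_eq_zero fun φ' _ => ?_
      rw [if_neg (not_not.2 hy), mul_zero, ite_self]
    · rw [if_neg hy, bp_eq, bp_eq, map_sum, Finset.sum_mul_sum]
      refine Finset.sum_congr rfl fun φ _ => Finset.sum_congr rfl fun φ' _ => ?_
      rw [if_pos hy]
      by_cases h1 : φ ∈ b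
      · by_cases h2 : φ' ∈ b'
        · rw [if_pos h1, if_pos h2, if_pos ⟨h1, h2⟩, map_mul]; ring
        · have h3 : ¬ (φ ∈ b ∧ φ' ∈ b') := fun h => h2 h.2
          rw [if_neg h2, if_neg h3, map_zero, mul_zero]
      · have h3 : ¬ (φ ∈ b ∧ φ' ∈ b') := fun h => h1 h.1
        rw [if_neg h1, if_neg h3, zero_mul]
  rw [Finset.sum_congr rfl fun y _ => h1 y, Finset.sum_comm]
  refine Finset.sum_eq_zero fun φ _ => ?_
  rw [Finset.sum_comm]
  refine Finset.sum_eq_zero fun φ' _ => ?_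
  by_cases h : φ ∈ b ∧ φ' ∈ b'
  · have h2 : ∀ y : Subgroup.centralizer ({x} : Set G), (if φ ∈ b ∧ φ' ∈ b' then
        ((aa (Subgroup.centralizer ({x} : Set G)) χ φ : ℂ) * zl (zz x) φ) *
        conj ((aa (Subgroup.centralizer ({x} : Set G)) ψ φ' : ℂ) * zl (zz x) φ') *
        (if ¬ p ∣ orderOf y then (φ : Subgroup.centralizer ({x} : Set G) → ℂ) y *
          conj ((φ' : Subgroup.centralizer ({x} : Set G) → ℂ) y) else 0) else 0) =
        ((aa (Subgroup.centralizer ({x} : Set G)) χ φ : ℂ) * zl (zz x) φ) *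
        conj ((aa (Subgroup.centralizer ({x} : Set G)) ψ φ' : ℂ) * zl (zz x) φ') *
        (if ¬ p ∣ orderOf y then (φ : Subgroup.centralizer ({x} : Set G) → ℂ) y *
          conj ((φ' : Subgroup.centralizer ({x} : Set G) → ℂ) y) else 0) := fun y => if_pos h
    rw [Finset.sum_congr rfl fun y _ => h2 y, ← Finset.mul_sum, ← Finset.sum_filter,
      orth_regular hM φ φ', mul_zero]
    intro hs
    apply hne
    exact block_eq_of_mem hb hb' (block_mem_of_sameBlock hb h.1 hs) h.2
  · exact Finset.sum_eq_zero fun y _ => if_neg h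

open Classical in
theorem one_section (hM : IsPModular p M) (hx : ∃ k : ℕ, orderOf x = p ^ k)
    {B : Set (IrrCharacter G)} (hB : IsPBlock M B) {χ : IrrCharacter G} (hχ : χ ∈ B) :
    ∑ y : Subgroup.centralizer ({x} : Set G), (if p ∣ orderOf y then 0 else
      (χ : G → ℂ) (x * y) * conj ((χ : G → ℂ) (x * y))) =
    (Nat.card (Subgroup.centralizer ({x} : Set G)) : ℂ) * ∑ b ∈ iB M B x, mm p x b χ χ := by
  haveI := hM.2.1
  have h0 : iB M B x = (blocks (Subgroup.centralizer ({x} : Set G)) M).filter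
      (fun b => IsInducedBlock M (Subgroup.centralizer ({x} : Set G)) b B) := by
    ext b
    rw [mem_iB, Finset.mem_filter, mem_blocks]
    exact ⟨fun h => ⟨h.1, h⟩, fun h => h.2⟩
  have h1 : ∀ y : Subgroup.centralizer ({x} : Set G), (if p ∣ orderOf y then 0 else
      (χ : G → ℂ) (x * y) * conj ((χ : G → ℂ) (x * y))) =
      ∑ b ∈ iB M B x, ∑ b' ∈ iB M B x, (if p ∣ orderOf y then 0 else
        bp x b (χ : G → ℂ) y * conj (bp x b' (χ : G → ℂ) y)) := by
    intro y
    by_cases hy : p ∣ orderOf y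
    · simp only [if_pos hy, Finset.sum_const_zero]
    · simp only [if_neg hy]
      rw [sec_eq_sum hM hx hB hχ y hy, map_sum, Finset.sum_mul_sum, h0]
  rw [Finset.sum_congr rfl fun y _ => h1 y, Finset.sum_comm, Finset.mul_sum]
  refine Finset.sum_congr rfl fun b hb => ?_
  rw [Finset.sum_comm, Finset.sum_eq_single_of_mem b hb]
  · unfold mm
    rw [← mul_assoc, mul_inv_cancel₀ card_cast_ne_zero, one_mul]
  · intro b' hb' hne
    exact bp_orth hM (mem_iB.1 hb).1 (mem_iB.1 hb').1 hne.symm χ χ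

end

section
variable {G : Type*} [Group G] [Fintype G] [hp : Fact p.Prime]

/-- contributions with the canonical instance -/
noncomputable def mmF (p : ℕ) (x : G) (b : Set (IrrCharacter (Subgroup.centralizer ({x} : Set G))))
    (χ ψ : IrrCharacter G) : ℂ :=
  letI : Fintype (Subgroup.centralizer ({x} : Set G)) := Fintype.ofFinite _
  mm p x b χ ψ

theorem mmF_eq (x : G) [inst : Fintype (Subgroup.centralizer ({x} : Set G))]
    (b : Set (IrrCharacter (Subgroup.centralizer ({x} : Set G)))) (χ ψ : IrrCharacter G) :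
    mmF p x b χ ψ = mm p x b χ ψ := by
  unfold mmF
  have : Fintype.ofFinite (Subgroup.centralizer ({x} : Set G)) = inst := Subsingleton.elim _ _
  rw [this]

/-- the sum of all the contributions of a character is one -/
theorem contrib_sum (hM : IsPModular p M) {B : Set (IrrCharacter G)} (hB : IsPBlock M B)
    {χ : IrrCharacter G} (hχ : χ ∈ B) :
    ∑ x ∈ reps (G := G) p, ∑ b ∈ iB M B x, mmF p x b χ χ = 1 := by
  classical
  haveI : Fintype (IrrCharacter G) := Fintype.ofFinite _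
  have hn : (Nat.card G : ℂ) ≠ 0 := card_cast_ne_zero
  have h1 := ci_irr_self χ.2
  rw [classInner] at h1
  have hF : IsClassFunction G (fun g => (χ : G → ℂ) g * conj ((χ : G → ℂ) g)) := by
    intro a b
    show (χ : G → ℂ) (b * a * b⁻¹) * conj ((χ : G → ℂ) (b * a * b⁻¹)) = _
    rw [IsIrr.isClass χ.2 a b]
  have h2 : ∑ g : G, (χ : G → ℂ) g * conj ((χ : G → ℂ) g) = Nat.card G := by
    field_simp at h1
    exact h1
  rw [sum_sections (p := p) hF (reps_unique p)] at h2
  have h3 : ∑ x ∈ reps (G := G) p, (Nat.card G : ℂ) * ∑ b ∈ iB M B x, mmF p x b χ χ = Nat.card G := by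
    rw [← h2]
    refine Finset.sum_congr rfl fun x hx => ?_
    haveI : Fintype (Subgroup.centralizer ({x} : Set G)) := Fintype.ofFinite _
    haveI : Fintype (IrrCharacter (Subgroup.centralizer ({x} : Set G))) := Fintype.ofFinite _
    rw [section_sum (reps_p p hx), one_section hM (reps_p p hx) hB hχ, ← mul_assoc]
    have hidx : (Nat.card G : ℂ) = ((Subgroup.centralizer ({x} : Set G)).index : ℂ) *
        (Nat.card (Subgroup.centralizer ({x} : Set G)) : ℂ) := by
      rw [mul_comm]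
      exact_mod_cast (Subgroup.card_mul_index _).symm
    rw [← hidx]
    congr 1
    exact Finset.sum_congr rfl fun b _ => mmF_eq x b χ χ
  rw [← Finset.mul_sum] at h3
  have h4 := mul_left_cancel₀ hn (h3.trans (mul_one _).symm)
  exact h4

end

end Cfsg.Agent.H25.CenSec
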