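import Cfsg.Agent.H25_CenSec

/-! Galois averages of the contributions of all subsections. -/

open scoped ComplexConjugate

namespace Cfsg.Agent.H25.CenSec2

open Cfsg Cfsg.Agent.H3 Cfsg.Agent.H3.CharBasic Cfsg.Agent.H3.CharIrr Cfsg.Agent.H3.CharComplete
  Cfsg.Agent.H25.Brauer Cfsg.Agent.H25.BrauerP Cfsg.Agent.H25.Elem
  Cfsg.Agent.H10.Char Cfsg.Agent.H10.BlockLoc Cfsg.Agent.H10.BlockAlg Cfsg.Agent.H10.BlockIdem
  Cfsg.Agent.H10.BlockOrth Cfsg.Agent.H10.BlockHZ Cfsg.Agent.H10.BlockInd Cfsg.Agent.H10.PPart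
  Cfsg.Agent.H10.BlockSMT Cfsg.Agent.H10.BlockSMT2 Cfsg.Agent.H10.BlockPrin Cfsg.Agent.H10.BlockDefect
  Cfsg.Agent.H25.BlockReg Cfsg.Agent.H25.BlockReg2 Cfsg.Agent.H25.BlockReg3 Cfsg.Agent.H25.IndCong
  Cfsg.Agent.H25.Sub Cfsg.Agent.H25.Sub2 Cfsg.Agent.H25.Avg Cfsg.Agent.H3.CharGal
  Cfsg.Agent.H25.Sub3 Cfsg.Agent.H25.Sub4 Cfsg.Agent.H25.Sub5 Cfsg.Agent.H25.Sub6 Cfsg.Agent.H25.Sub7
  Cfsg.Agent.H25.AbSec2 Cfsg.Agent.H25.CenSec

/-- AM-GM for the diagonal, weighted -/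
theorem w_le_T {n : ℕ} [NeZero n] {I : Type*} [Fintype I] {N : I → I → Cyc n} {q : ℕ}
    (h : Herm N q) (hq : 0 < q) (i : I) (hi : N i i ≠ 0) {w : ℕ} (hw0 : 0 < w)
    (hw : IsIntegral ℤ ((N i i : ℂ) / (w : ℂ))) : (w : ℝ) ≤ Herm.T N i := by
  have hc : (0 : ℝ) < Fintype.card (Gm n) := by exact_mod_cast Fintype.card_pos
  have hq' : (0 : ℝ) < q := by exact_mod_cast hq
  have hw' : (0 : ℝ) < w := by exact_mod_cast hw0
  have hwc : (w : Cyc n) ≠ 0 := by exact_mod_cast hw0.ne'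
  set u : Cyc n := N i i / (w : Cyc n) with hu
  have hu0 : u ≠ 0 := div_ne_zero hi hwc
  have hui : IsIntegral ℤ (u : ℂ) := by
    rw [hu]; push_cast; exact hw
  have hNu : N i i = (w : Cyc n) * u := by rw [hu, mul_div_cancel₀ _ hwc]
  have hσ : ∀ σ : Gm n, (σ (N i i) : ℂ) = (w : ℂ) * (σ u : ℂ) := by
    intro σ
    rw [hNu, map_mul, map_natCast]; push_cast; rfl
  have hre : ∀ σ : Gm n, (σ u : ℂ) = (((σ u : ℂ).re : ℝ) : ℂ) := by
    intro σ
    have h1 : (u : ℂ) = starRingEnd ℂ (u : ℂ) := by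
      rw [hu]; push_cast
      rw [map_div₀, Complex.conj_natCast, ← h.herm i i]
    have := conj_gal σ u u h1
    exact ((Complex.conj_eq_iff_re).1 this.symm).symm
  have hnn : ∀ σ : Gm n, 0 ≤ (σ u : ℂ).re := by
    intro σ
    have h1 := h.row σ i
    have h2 : (0 : ℝ) ≤ q * (σ (N i i) : ℂ).re := by
      rw [← h1]; exact Finset.sum_nonneg fun j _ => by positivity
    have h3 := nonneg_of_mul_nonneg_right h2 hq'
    rw [hσ σ, hre σ, ← Complex.ofReal_natCast, ← Complex.ofReal_mul, Complex.ofReal_re] at h3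
    exact nonneg_of_mul_nonneg_right h3 hw'
  have hpos : ∀ σ : Gm n, 0 < (σ u : ℂ).re := by
    intro σ
    refine lt_of_le_of_ne (hnn σ) ?_
    intro h0
    apply hu0
    have h1 : (σ u : ℂ) = 0 := by rw [hre σ, ← h0]; simp
    have h2 : σ u = 0 := Subtype.ext h1
    simpa using h2
  obtain ⟨r, hr⟩ := rat_of_fixed (∏ σ : Gm n, σ u) (fun τ => by
    rw [map_prod]
    exact Equiv.prod_comp (Equiv.mulLeft τ) (fun σ : Gm n => σ u))
  have hr' : (∏ σ : Gm n, (σ u : ℂ)) = r := by rw [← hr]; push_cast; rfl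
  have hri : IsIntegral ℤ (r : ℂ) := by
    rw [← hr']; exact IsIntegral.prod _ fun σ _ => gal_isIntegral σ _ hui
  obtain ⟨z, hz⟩ := Cfsg.Agent.H3.CharInt.exists_int_of_isIntegral hri
  have hprod : (∏ σ : Gm n, (σ u : ℂ).re) = (z : ℝ) := by
    have h1 : ((∏ σ : Gm n, (σ u : ℂ).re : ℝ) : ℂ) = ((z : ℝ) : ℂ) := by
      rw [Complex.ofReal_prod, ← Finset.prod_congr rfl fun σ _ => hre σ, hr', hz]
      push_cast; rfl
    exact_mod_cast h1
  have hz1 : (1 : ℝ) ≤ ∏ σ : Gm n, (σ u : ℂ).re := by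
    have : (0 : ℝ) < ∏ σ : Gm n, (σ u : ℂ).re := Finset.prod_pos fun σ _ => hpos σ
    rw [hprod] at this ⊢
    exact_mod_cast this
  have hlog : 0 ≤ ∑ σ : Gm n, Real.log ((σ u : ℂ).re) := by
    rw [← Real.log_prod (fun σ _ => (hpos σ).ne')]
    exact Real.log_nonneg hz1
  have hterm : ∑ σ : Gm n, Real.log ((σ u : ℂ).re) ≤
      ∑ σ : Gm n, ((σ u : ℂ).re - 1) :=
    Finset.sum_le_sum fun σ _ => Real.log_le_sub_one_of_pos (hpos σ)
  rw [Finset.sum_sub_distrib, Finset.sum_const, Finset.card_univ, nsmul_eq_mul, mul_one] at hterm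
  have h1 : Herm.T N i = (w : ℝ) * ((Fintype.card (Gm n) : ℝ)⁻¹ * ∑ σ : Gm n, (σ u : ℂ).re) := by
    unfold Herm.T
    rw [hNu]
    have e1 := av_int_mul (w : ℤ) u
    rw [Int.cast_natCast, Int.cast_natCast] at e1
    rw [e1, ← Complex.ofReal_natCast, Complex.re_ofReal_mul]
    congr 1
    unfold av
    have h1 : (Fintype.card (Gm n) : ℂ)⁻¹ = (((Fintype.card (Gm n) : ℝ)⁻¹ : ℝ) : ℂ) := by
      push_cast; rfl
    rw [h1, Complex.re_ofReal_mul, Complex.re_sum]
  rw [h1]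
  have h2 : (1 : ℝ) ≤ (Fintype.card (Gm n) : ℝ)⁻¹ * ∑ σ : Gm n, (σ u : ℂ).re := by
    rw [inv_mul_eq_div, le_div_iff₀ hc]
    linarith
  nlinarith

variable {p : ℕ} {M : Ideal AlgInt}

instance ne_card {G : Type*} [Group G] [Finite G] : NeZero (Nat.card G) := ⟨Nat.card_pos.ne'⟩

section
variable {G : Type*} [Group G] [Fintype G] [hp : Fact p.Prime]

theorem NF_mem (x : G) (b : Set (IrrCharacter (Subgroup.centralizer ({x} : Set G))))
    (χ ψ : IrrCharacter G) :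
    ((p ^ blockDefect p b : ℕ) : ℂ) * mmF p x b χ ψ ∈ Cyc (Nat.card G) := by
  classical
  haveI : Fintype (Subgroup.centralizer ({x} : Set G)) := Fintype.ofFinite _
  haveI : Fintype (IrrCharacter (Subgroup.centralizer ({x} : Set G))) := Fintype.ofFinite _
  haveI : Fintype (IrrCharacter G) := Fintype.ofFinite _
  rw [mmF_eq x b χ ψ]
  have h1 : ((p ^ blockDefect p b : ℕ) : ℂ) * mm p x b χ ψ = NN p x b χ ψ := rfl
  rw [h1, NN_eq]
  have hz : ∀ φ : IrrCharacter (Subgroup.centralizer ({x} : Set G)),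
      zl (zz x) φ ^ Nat.card G = 1 := by
    intro φ
    obtain ⟨k, hk⟩ := orderOf_dvd_natCard x
    rw [hk, pow_mul, zl_ord, one_pow]
  refine sum_mem fun φ _ => sum_mem fun φ' _ => ?_
  split_ifs
  · refine mul_mem (intCast_mem _ _) (mul_mem (root_mem (hz φ)) (root_mem ?_))
    rw [← map_pow, hz, map_one]
  · exact zero_mem _

/-- the normalised contributions in the cyclotomic field of the group order -/
noncomputable def NG (p : ℕ) [Fact p.Prime] (x : G)
    (b : Set (IrrCharacter (Subgroup.centralizer ({x} : Set G))))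
    (χ ψ : IrrCharacter G) : Cyc (Nat.card G) :=
  ⟨((p ^ blockDefect p b : ℕ) : ℂ) * mmF p x b χ ψ, NF_mem x b χ ψ⟩

theorem NG_coe (x : G) [Fintype (Subgroup.centralizer ({x} : Set G))]
    (b : Set (IrrCharacter (Subgroup.centralizer ({x} : Set G))))
    (χ ψ : IrrCharacter G) : (NG p x b χ ψ : ℂ) = NN p x b χ ψ := by
  show ((p ^ blockDefect p b : ℕ) : ℂ) * mmF p x b χ ψ = _
  rw [mmF_eq]
  rfl

theorem NG_herm [Fintype (IrrCharacter G)] (hM : IsPModular p M) {x : G} (hx : ∃ k : ℕ, orderOf x = p ^ k)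
    {b : Set (IrrCharacter (Subgroup.centralizer ({x} : Set G)))} (hb : IsPBlock M b) :
    Herm (NG p x b) (p ^ blockDefect p b) := by
  haveI : Fintype (Subgroup.centralizer ({x} : Set G)) := Fintype.ofFinite _
  haveI : Fintype (IrrCharacter (Subgroup.centralizer ({x} : Set G))) := Fintype.ofFinite _
  refine ⟨fun χ ψ => ?_, fun χ ψ => ?_, fun χ ρ => ?_⟩
  · rw [NG_coe]; exact NN_integral b χ ψ
  · rw [NG_coe, NG_coe]
    unfold NN
    rw [map_mul, Complex.conj_natCast, mm_herm]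
  · apply Subtype.ext
    push_cast
    simp only [NG_coe]
    unfold NN
    have h1 := mm_mul hM hx hb χ ρ
    rw [← h1]
    push_cast
    rw [Finset.mul_sum, Finset.mul_sum]
    refine Finset.sum_congr rfl fun ψ _ => ?_
    ring

theorem av_div {n : ℕ} [NeZero n] (z : Cyc n) {m : ℕ} (hm : m ≠ 0) :
    av (z / (m : Cyc n)) = av z / m := by
  have hmc : (m : Cyc n) ≠ 0 := by exact_mod_cast hm
  have hmc' : (m : ℂ) ≠ 0 := by exact_mod_cast hm
  have e1 := av_int_mul (m : ℤ) (z / (m : Cyc n))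
  rw [Int.cast_natCast, Int.cast_natCast, mul_div_cancel₀ _ hmc] at e1
  rw [e1, mul_div_cancel_left₀ _ hmc']

theorem av_one {n : ℕ} [NeZero n] : av (1 : Cyc n) = 1 := by
  have := av_nat (n := n) 1
  rwa [Nat.cast_one, Nat.cast_one] at this

/-- the averaged contributions of a character add up to one -/
theorem T_sum_one (hM : IsPModular p M) {B : Set (IrrCharacter G)} (hB : IsPBlock M B)
    {χ : IrrCharacter G} (hχ : χ ∈ B) :
    ∑ x ∈ reps (G := G) p, ∑ b ∈ iB M B x,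
      Herm.T (NG p x b) χ / ((p ^ blockDefect p b : ℕ) : ℝ) = 1 := by
  have hpn : ∀ m : ℕ, p ^ m ≠ 0 := fun m => pow_ne_zero _ hp.out.ne_zero
  have h1 : ∑ x ∈ reps (G := G) p, ∑ b ∈ iB M B x,
      NG p x b χ χ / ((p ^ blockDefect p b : ℕ) : Cyc (Nat.card G)) = 1 := by
    apply Subtype.ext
    refine Eq.trans ?_ (contrib_sum hM hB hχ)
    rw [AddSubmonoidClass.coe_finset_sum]
    refine Finset.sum_congr rfl fun x _ => ?_
    rw [AddSubmonoidClass.coe_finset_sum]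
    refine Finset.sum_congr rfl fun b _ => ?_
    have : ((p ^ blockDefect p b : ℕ) : ℂ) ≠ 0 := by exact_mod_cast hpn _
    show ((p ^ blockDefect p b : ℕ) : ℂ) * mmF p x b χ χ / ((p ^ blockDefect p b : ℕ) : ℂ) = _
    rw [mul_div_cancel_left₀ _ this]
  have h2 := congrArg av h1
  rw [av_sum, av_one] at h2
  have h3 := congrArg Complex.re h2
  rw [Complex.re_sum, Complex.one_re] at h3
  rw [← h3]
  refine Finset.sum_congr rfl fun x _ => ?_
  rw [av_sum, Complex.re_sum]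
  refine Finset.sum_congr rfl fun b _ => ?_
  rw [av_div _ (hpn _)]
  unfold Herm.T
  rw [Complex.div_natCast_re]

theorem T_major (hM : IsPModular p M) {x : G} (hx : ∃ k : ℕ, orderOf x = p ^ k)
    {b : Set (IrrCharacter (Subgroup.centralizer ({x} : Set G)))}
    {B : Set (IrrCharacter G)} (hind : IsInducedBlock M (Subgroup.centralizer ({x} : Set G)) b B)
    (hmaj : blockDefect p b = blockDefect p B)
    {χ : IrrCharacter G} (hχ : χ ∈ B) :
    ((p ^ blockHeight p B (χ : G → ℂ) : ℕ) : ℝ) ≤ Herm.T (NG p x b) χ := by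
  haveI : Fintype (IrrCharacter G) := Fintype.ofFinite _
  haveI : Fintype (Subgroup.centralizer ({x} : Set G)) := Fintype.ofFinite _
  haveI : Fintype (IrrCharacter (Subgroup.centralizer ({x} : Set G))) := Fintype.ofFinite _
  refine w_le_T (NG_herm hM hx hind.1) (q_pos b) χ ?_ (pow_pos hp.out.pos _) ?_
  · intro h0
    exact maj_diag_ne hM hx hind hmaj hχ (by rw [← NG_coe, h0]; rfl)
  · rw [NG_coe]
    exact maj_int hM hx hind.1 hind.2.1 hmaj χ hχ

theorem T_nonneg (hM : IsPModular p M) {x : G} (hx : ∃ k : ℕ, orderOf x = p ^ k)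
    {b : Set (IrrCharacter (Subgroup.centralizer ({x} : Set G)))} (hb : IsPBlock M b)
    (χ : IrrCharacter G) : 0 ≤ Herm.T (NG p x b) χ := by
  haveI : Fintype (IrrCharacter G) := Fintype.ofFinite _
  haveI : Fintype (Subgroup.centralizer ({x} : Set G)) := Fintype.ofFinite _
  haveI : Fintype (IrrCharacter (Subgroup.centralizer ({x} : Set G))) := Fintype.ofFinite _
  exact (NG_herm hM hx hb).T_nonneg (q_pos b) χ

/-- a set of major subsections bounds the height -/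
theorem card_major_mul (hM : IsPModular p M) {B : Set (IrrCharacter G)} (hB : IsPBlock M B)
    {χ : IrrCharacter G} (hχ : χ ∈ B)
    (S : Finset (Σ x : G, Set (IrrCharacter (Subgroup.centralizer ({x} : Set G)))))
    (hS : ∀ s ∈ S, s.1 ∈ reps (G := G) p ∧
      IsInducedBlock M (Subgroup.centralizer ({s.1} : Set G)) s.2 B ∧
      blockDefect p s.2 = blockDefect p B) :
    S.card * p ^ blockHeight p B (χ : G → ℂ) ≤ p ^ blockDefect p B := by
  classical
  have h1 := T_sum_one hM hB hχ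
  have hq : (0 : ℝ) < ((p ^ blockDefect p B : ℕ) : ℝ) := by exact_mod_cast pow_pos hp.out.pos _
  have h2 : ∑ s ∈ S, Herm.T (NG p s.1 s.2) χ / ((p ^ blockDefect p s.2 : ℕ) : ℝ) ≤ 1 := by
    rw [← h1, Finset.sum_sigma' (reps (G := G) p) (fun x => iB M B x)
      (fun x b => Herm.T (NG p x b) χ / ((p ^ blockDefect p b : ℕ) : ℝ))]
    refine Finset.sum_le_sum_of_subset_of_nonneg ?_ ?_
    · intro s hs
      rw [Finset.mem_sigma, mem_iB]
      exact ⟨(hS s hs).1, (hS s hs).2.1⟩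
    · intro s hs _
      rw [Finset.mem_sigma, mem_iB] at hs
      exact div_nonneg (T_nonneg hM (reps_p p hs.1) hs.2.1 χ) (Nat.cast_nonneg _)
  have h3 : ∑ s ∈ S, ((p ^ blockHeight p B (χ : G → ℂ) : ℕ) : ℝ) / ((p ^ blockDefect p B : ℕ) : ℝ) ≤ 1 := by
    refine le_trans (Finset.sum_le_sum fun s hs => ?_) h2
    obtain ⟨h4, h5, h6⟩ := hS s hs
    rw [h6]
    exact div_le_div_of_nonneg_right (T_major hM (reps_p p h4) h5 h6 hχ) hq.le
  rw [Finset.sum_const, nsmul_eq_mul, ← mul_div_assoc, div_le_one hq] at h3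
  exact_mod_cast h3

end

end Cfsg.Agent.H25.CenSec2
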