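import Mathlib
import Cfsg.Agent.H25_KG
import Cfsg.Agent.H25_KGBlk
import Cfsg.Agent.H9_BrMod4

/-!
H25_Cya: transfer sums over cosets, and the trivial intersection decomposition of stable maps
(first step of the theory of blocks with cyclic defect groups).
-/

set_option autoImplicit false
set_option linter.unusedSectionVars false

namespace Cfsg.Agent.H25.Cya

open Module Cfsg.Agent.H25.KG Cfsg.Agent.H9.BrMod4

variable {k : Type*} [Field k] {G : Type*} [Group G] [Fintype G]

/-- abbreviation for group elements in the group algebra -/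
noncomputable abbrev sg (g : G) : MonoidAlgebra k G := MonoidAlgebra.single g (1:k)

theorem sg_mul (g h : G) : (sg (k := k) (g * h)) = sg g * sg h := by
  rw [sg, sg, sg, MonoidAlgebra.single_mul_single, mul_one]

theorem sg_one : (sg (k := k) (1 : G)) = 1 := rfl

theorem sg_c [DecidableEq G] (g x : G) : (sg (k := k) g).coeff x = if g = x then 1 else 0 := by
  rw [sg, MonoidAlgebra.coeff_single, Finsupp.single_apply]

theorem sg_mul_c (g : G) (a : MonoidAlgebra k G) (x : G) : (sg g * a).coeff x = a.coeff (g⁻¹ * x) := by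
  classical
  rw [mul_c, Finset.sum_eq_single g]
  · rw [sg_c, if_pos rfl, one_mul]
  · intro y _ hy
    rw [sg_c, if_neg (Ne.symm hy), zero_mul]
  · intro h; exact absurd (Finset.mem_univ _) h

theorem mul_sg_c (g : G) (a : MonoidAlgebra k G) (x : G) : (a * sg g).coeff x = a.coeff (x * g⁻¹) := by
  classical
  rw [mul_c', Finset.sum_eq_single g]
  · rw [sg_c, if_pos rfl, mul_one]
  · intro y _ hy
    rw [sg_c, if_neg (Ne.symm hy), mul_zero]
  · intro h; exact absurd (Finset.mem_univ _) h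

theorem sg_mul_eq (g : G) (a : MonoidAlgebra k G) : sg g * a = cnj g a * sg g := by
  apply ext_c; intro x
  rw [sg_mul_c, mul_sg_c, cnj_c]
  congr 1; group

theorem cnj_eq (g : G) (a : MonoidAlgebra k G) : cnj g a = sg g * a * sg g⁻¹ := by
  rw [sg_mul_eq, mul_assoc, ← sg_mul, mul_inv_cancel, sg_one, mul_one]

theorem sg_inv_mul (g : G) : (sg (k := k) g⁻¹) * sg g = 1 := by
  rw [← sg_mul, inv_mul_cancel, sg_one]

theorem sg_mul_inv (g : G) : (sg (k := k) g) * sg g⁻¹ = 1 := by
  rw [← sg_mul, mul_inv_cancel, sg_one]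

section cosets

variable {X : Type*} [AddCommGroup X]

open Classical in
/-- sum over left cosets -/
noncomputable def cos (D : Subgroup G) (Φ : G → X) : X := ∑ q : G ⧸ D, Φ q.out

/-- right invariance -/
def RInv (D : Subgroup G) (Φ : G → X) : Prop := ∀ d ∈ D, ∀ g, Φ (g * d) = Φ g

theorem RInv.out {D : Subgroup G} {Φ : G → X} (h : RInv D Φ) (g : G) :
    Φ ((g : G ⧸ D).out) = Φ g := by
  have h1 : g⁻¹ * ((g : G ⧸ D).out) ∈ D := by
    rw [← QuotientGroup.eq, QuotientGroup.out_eq']
  have h2 := h _ h1 g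
  rw [mul_inv_cancel_left] at h2
  exact h2

theorem cos_left {D : Subgroup G} {Φ : G → X} (h : RInv D Φ) (x : G) :
    cos D Φ = cos D (fun g => Φ (x * g)) := by
  classical
  unfold cos
  rw [← Equiv.sum_comp (MulAction.toPerm x : Equiv.Perm (G ⧸ D))]
  refine Finset.sum_congr rfl fun q _ => ?_
  have h1 : (MulAction.toPerm x : Equiv.Perm (G ⧸ D)) q = ((x * q.out : G) : G ⧸ D) := by
    rw [MulAction.toPerm_apply]
    conv_lhs => rw [← QuotientGroup.out_eq' q]
    rfl
  rw [h1, h.out]

theorem cos_zero {D : Subgroup G} {Φ : G → X} (h : ∀ g, Φ g = 0) : cos D Φ = 0 := by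
  classical
  unfold cos
  exact Finset.sum_eq_zero fun q _ => h _

theorem cos_add {D : Subgroup G} (Φ Ψ : G → X) : cos D (fun g => Φ g + Ψ g) = cos D Φ + cos D Ψ := by
  classical
  unfold cos
  exact Finset.sum_add_distrib

theorem cos_congr {D : Subgroup G} {Φ Ψ : G → X} (h : ∀ g, Φ g = Ψ g) : cos D Φ = cos D Ψ := by
  classical
  unfold cos
  exact Finset.sum_congr rfl fun q _ => h _

theorem map_cos {Y : Type*} [AddCommGroup Y] {D : Subgroup G} (T : X →+ Y) (Φ : G → X) :
    T (cos D Φ) = cos D (fun g => T (Φ g)) := by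
  classical
  unfold cos
  rw [map_sum]

/-- a free action of `D` on the cosets carrying the function -/
theorem cos_free {D : Subgroup G} [Fintype D] {Φ : G → X} (h : RInv D Φ) (c : G → X →+ X)
    (hc : ∀ d ∈ D, ∀ g, Φ (d * g) = c d (Φ g))
    (hfree : ∀ g, Φ g ≠ 0 → ∀ d ∈ D, g⁻¹ * d * g ∈ D → d = 1) :
    ∃ ξ : X, cos D Φ = ∑ d : D, c d ξ := by
  classical
  set Ω := G ⧸ D
  set Φ' : Ω → X := fun q => Φ q.out with hΦ'
  have hsm : ∀ (d : D) (q : Ω), Φ' (d • q) = c d (Φ' q) := by
    intro d q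
    have h1 : (d • q : Ω) = (((d : G) * q.out : G) : G ⧸ D) := by
      conv_lhs => rw [← QuotientGroup.out_eq' q]
      rfl
    rw [hΦ']
    show Φ ((d • q : Ω).out) = c d (Φ q.out)
    rw [h1, h.out, hc d d.2]
  let O := MulAction.orbitRel.Quotient D Ω
  haveI : Fintype O := Fintype.ofFinite _
  refine ⟨∑ o : O, Φ' o.out, ?_⟩
  have h1 : cos D Φ = ∑ o : O, ∑ q ∈ Finset.univ.filter (fun q : Ω => (Quotient.mk _ q : O) = o), Φ' q := by
    unfold cos
    exact (Finset.sum_fiberwise (Finset.univ : Finset Ω) (fun q : Ω => (Quotient.mk _ q : O)) Φ').symm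
  rw [h1]
  have h2 : ∑ d : D, c d (∑ o : O, Φ' o.out) = ∑ o : O, ∑ d : D, c d (Φ' o.out) := by
    rw [Finset.sum_comm]
    refine Finset.sum_congr rfl fun d _ => ?_
    rw [map_sum]
  rw [h2]
  refine Finset.sum_congr rfl fun o _ => ?_
  have hmem : ∀ q : Ω, (Quotient.mk _ q : O) = o ↔ ∃ d : D, d • (o.out : Ω) = q := by
    intro q
    have : (Quotient.mk _ q : O) = o ↔ (Quotient.mk _ q : O) = Quotient.mk _ (o.out : Ω) := by
      rw [Quotient.out_eq]
    rw [this, Quotient.eq]
    exact MulAction.orbitRel_apply.trans MulAction.mem_orbit_iff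
  by_cases h0 : Φ' o.out = 0
  · rw [Finset.sum_eq_zero, Finset.sum_eq_zero]
    · intro d _; rw [h0, map_zero]
    · intro q hq
      rw [Finset.mem_filter, hmem] at hq
      obtain ⟨_, d, hd⟩ := hq
      rw [← hd, hsm, h0, map_zero]
  · have hinj : Function.Injective (fun d : D => d • (o.out : Ω)) := by
      intro d d' hdd
      simp only at hdd
      have h3 : (d'⁻¹ * d) • (o.out : Ω) = o.out := by
        rw [mul_smul, hdd, inv_smul_smul]
      have h4 : ((o.out : Ω).out)⁻¹ * (((d'⁻¹ * d : D) : G) * (o.out : Ω).out) ∈ D := by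
        rw [← QuotientGroup.eq, QuotientGroup.out_eq']
        conv_lhs => rw [← h3]
        conv_lhs => rw [← QuotientGroup.out_eq' (o.out : Ω)]
        rfl
      rw [← mul_assoc] at h4
      have h5 := hfree _ h0 _ (d'⁻¹ * d : D).2 h4
      have h6 : (d'⁻¹ * d : D) = 1 := Subtype.ext h5
      rw [inv_mul_eq_one] at h6
      exact h6.symm
    have himg : Finset.univ.filter (fun q : Ω => (Quotient.mk _ q : O) = o) =
        Finset.univ.image (fun d : D => d • (o.out : Ω)) := by
      ext q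
      rw [Finset.mem_filter, hmem, Finset.mem_image]
      simp
    rw [himg, Finset.sum_image fun a _ b _ hab => hinj hab]
    exact Finset.sum_congr rfl fun d _ => hsm d _

end cosets

section maps

variable {S S' : Type*} [AddCommGroup S] [Module (MonoidAlgebra k G) S] [Module k S]
  [IsScalarTower k (MonoidAlgebra k G) S] [AddCommGroup S'] [Module (MonoidAlgebra k G) S'] [Module k S']
  [IsScalarTower k (MonoidAlgebra k G) S']

variable (S S') in
/-- left multiplication by an element of the group algebra -/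
noncomputable def lm (a : MonoidAlgebra k G) : S →ₗ[k] S := Algebra.lsmul k k S a

theorem lm_apply (a : MonoidAlgebra k G) (s : S) : lm S a s = a • s := rfl

/-- conjugation of maps -/
noncomputable def cg (g : G) : (S →ₗ[k] S') →ₗ[k] (S →ₗ[k] S') where
  toFun γ := lm S' (sg g) ∘ₗ γ ∘ₗ lm S (sg g⁻¹)
  map_add' γ δ := by ext s; simp [lm_apply, smul_add]
  map_smul' c γ := by
    ext s
    simp only [LinearMap.comp_apply, LinearMap.smul_apply, RingHom.id_apply]
    rw [map_smul]

theorem cg_apply (g : G) (γ : S →ₗ[k] S') (s : S) :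
    cg g γ s = (sg g : MonoidAlgebra k G) • γ ((sg g⁻¹ : MonoidAlgebra k G) • s) := rfl

theorem cg_mul (g h : G) (γ : S →ₗ[k] S') : cg (g * h) γ = cg g (cg h γ) := by
  ext s
  rw [cg_apply, cg_apply, cg_apply, mul_inv_rev, sg_mul, sg_mul, mul_smul, mul_smul]

theorem cg_one (γ : S →ₗ[k] S') : cg (1 : G) γ = γ := by
  ext s
  rw [cg_apply, inv_one, sg_one, one_smul, one_smul]

/-- equivariance on a subgroup -/
theorem cg_eq_of_equiv {H : Subgroup G} {γ : S →ₗ[k] S'}
    (hγ : ∀ h ∈ H, ∀ s, γ ((sg h : MonoidAlgebra k G) • s) = (sg h : MonoidAlgebra k G) • γ s) {h : G} (hh : h ∈ H) :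
    cg h γ = γ := by
  ext s
  rw [cg_apply, ← hγ h hh, ← mul_smul, sg_mul_inv, one_smul]

open Classical in
/-- the trivial intersection decomposition: an `H`-equivariant map `γ = f γ f` is, up to a
map factoring through a projective, the compression of a `G`-equivariant map. -/
theorem b1 {D H N : Subgroup G} (hDH : D ≤ H) (hHN : H ≤ N) {f a : MonoidAlgebra k G}
    (haD : Fix D a) (hff : f * f = f) (hfH : Fix H f)
    (hfa : f = cos D (fun g => if g ∈ H then cnj g a else 0))
    (h1 : ∀ g ∈ N, g ∉ H → f * cnj g f = 0)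
    (h2 : ∀ g, g ∉ N → ∀ d ∈ D, g⁻¹ * d * g ∈ D → d = 1)
    (γ : S →ₗ[k] S') (hγf : ∀ s, γ s = f • γ (f • s))
    (hγ : ∀ h ∈ H, ∀ s, γ ((sg h : MonoidAlgebra k G) • s) = (sg h : MonoidAlgebra k G) • γ s) :
    ∃ Θ : S →ₗ[k] S', (∀ g : G, cg g Θ = Θ) ∧
      ∃ β : S →ₗ[k] S', ∀ s, γ s = f • Θ (f • s) + ∑ h : G, if h ∈ H then cg h β s else 0 := by
  classical
  have hNr : ∀ {g d : G}, d ∈ D → (g * d ∈ N ↔ g ∈ N) := fun {g d} hd =>
    ⟨fun h => by simpa using N.mul_mem h (N.inv_mem (hHN (hDH hd))), fun h => N.mul_mem h (hHN (hDH hd))⟩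
  have hHr : ∀ {g d : G}, d ∈ D → (g * d ∈ H ↔ g ∈ H) := fun {g d} hd =>
    ⟨fun h => by simpa using H.mul_mem h (H.inv_mem (hDH hd)), fun h => H.mul_mem h (hDH hd)⟩
  have hNl : ∀ {g x : G}, x ∈ N → (x * g ∈ N ↔ g ∈ N) := fun {g x} hx =>
    ⟨fun h => by simpa using N.mul_mem (N.inv_mem hx) h, fun h => N.mul_mem hx h⟩
  -- γ ∘ f = γ
  have hγf' : ∀ s, γ (f • s) = γ s := by
    intro s
    rw [hγf (f • s), hγf s, ← mul_smul, hff]
  have hfγ : ∀ s, f • γ s = γ s := by
    intro s
    rw [hγf s, ← mul_smul, hff]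
  set η : S →ₗ[k] S' := γ ∘ₗ lm S a with hη
  have hηD : ∀ d ∈ D, cg d η = η := by
    intro d hd
    ext s
    rw [cg_apply, hη, LinearMap.comp_apply, LinearMap.comp_apply, lm_apply, lm_apply, ← hγ d (hDH hd),
      ← mul_smul, ← mul_smul, ← cnj_eq, haD d hd]
  have hΦ : RInv D (fun g => cg g η) := by
    intro d hd g
    show cg (g * d) η = cg g η
    rw [cg_mul, hηD d hd]
  -- the map Θ
  set Θ := cos D (fun g => cg g η) with hΘ
  have hΘG : ∀ g : G, cg g Θ = Θ := by
    intro g
    have := map_cos (D := D) ((cg g : (S →ₗ[k] S') →ₗ[k] (S →ₗ[k] S')).toAddMonoidHom) (fun g => cg g η)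
    simp only [LinearMap.toAddMonoidHom_coe] at this
    rw [hΘ, this, cos_left hΦ g]
    exact cos_congr fun x => (cg_mul g x η).symm
  refine ⟨Θ, hΘG, ?_⟩
  -- the part outside N
  set Ψ : G → (S →ₗ[k] S') := fun g => if g ∉ N then cg g η else 0 with hΨ
  have hΨr : RInv D Ψ := by
    intro d hd g
    rw [hΨ]
    show (if g * d ∉ N then cg (g * d) η else 0) = if g ∉ N then cg g η else 0
    rw [hNr hd]
    split_ifs
    · rfl
    · exact hΦ d hd g
  have hΨl : ∀ x ∈ N, ∀ g, Ψ (x * g) = cg x (Ψ g) := by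
    intro x hx g
    rw [hΨ]
    show (if x * g ∉ N then cg (x * g) η else 0) = cg x (if g ∉ N then cg g η else 0)
    rw [hNl hx]
    split_ifs
    · rw [map_zero]
    · exact cg_mul x g η
  obtain ⟨ξ, hξ⟩ := cos_free hΨr (fun g => (cg g : (S →ₗ[k] S') →ₗ[k] (S →ₗ[k] S')).toAddMonoidHom)
    (fun d hd g => hΨl d (hHN (hDH hd)) g) (fun g hg d hd hgd => by
      refine h2 g ?_ d hd hgd
      intro hgN
      exact hg (by rw [hΨ]; exact if_neg (not_not.2 hgN)))
  simp only [LinearMap.toAddMonoidHom_coe] at hξ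
  set ξ' := cos D Ψ with hξ'
  have hξH : ∀ h ∈ H, cg h ξ' = ξ' := by
    intro h hh
    have := map_cos (D := D) ((cg h : (S →ₗ[k] S') →ₗ[k] (S →ₗ[k] S')).toAddMonoidHom) Ψ
    simp only [LinearMap.toAddMonoidHom_coe] at this
    rw [hξ', this, cos_left hΨr h]
    exact cos_congr fun x => (hΨl h (hHN hh) x).symm
  -- evaluation of cosets sums
  have hev : ∀ (Φ : G → (S →ₗ[k] S')) (s : S), cos D Φ s = cos D (fun g => Φ g s) := by
    intro Φ s
    unfold cos
    rw [LinearMap.sum_apply]
  have hfsum : ∀ (y : S'), f • y = cos D (fun g => if g ∈ H then cnj g a • y else 0) := by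
    intro y
    conv_lhs => rw [hfa]
    unfold cos
    rw [Finset.sum_smul]
    refine Finset.sum_congr rfl fun q _ => ?_
    beta_reduce
    split_ifs
    · rfl
    · rw [zero_smul]
  have hfsum' : ∀ (y : S), f • y = cos D (fun g => if g ∈ H then cnj g a • y else 0) := by
    intro y
    conv_lhs => rw [hfa]
    unfold cos
    rw [Finset.sum_smul]
    refine Finset.sum_congr rfl fun q _ => ?_
    beta_reduce
    split_ifs
    · rfl
    · rw [zero_smul]
  -- the three parts
  have hpart : ∀ s, f • Θ s = γ s + f • ξ' s := by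
    intro s
    have e1 : Θ s = cos D (fun g => if g ∈ H then cg g η s else 0) +
        (cos D (fun g => if g ∈ N ∧ g ∉ H then cg g η s else 0) + ξ' s) := by
      rw [hΘ, hev, hξ', hev, ← cos_add, ← cos_add]
      refine cos_congr fun g => ?_
      by_cases hg : g ∈ N
      · by_cases hg' : g ∈ H
        · simp [hΨ, hg, hg']
        · simp [hΨ, hg, hg']
      · have hg' : g ∉ H := fun h => hg (hHN h)
        simp [hΨ, hg, hg']
    have e2 : cos D (fun g => if g ∈ H then cg g η s else 0) = γ s := by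
      rw [← hγf' s, hfsum' s]
      have := map_cos (D := D) γ.toAddMonoidHom (fun g => if g ∈ H then cnj g a • s else 0)
      simp only [LinearMap.toAddMonoidHom_coe] at this
      rw [this]
      refine cos_congr fun g => ?_
      by_cases hg : g ∈ H
      · rw [if_pos hg, if_pos hg, cg_apply, hη, LinearMap.comp_apply, lm_apply, ← hγ g hg, ← mul_smul,
          ← mul_smul, ← cnj_eq]
      · rw [if_neg hg, if_neg hg, map_zero]
    have e3 : f • cos D (fun g => if g ∈ N ∧ g ∉ H then cg g η s else 0) = 0 := by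
      unfold cos
      rw [Finset.smul_sum]
      refine Finset.sum_eq_zero fun q _ => ?_
      beta_reduce
      split_ifs with hq
      · rw [cg_apply, hη, LinearMap.comp_apply, lm_apply, ← hfγ, ← mul_smul, ← mul_smul, mul_assoc, sg_mul_eq,
          ← mul_assoc, h1 _ hq.1 hq.2, zero_mul, zero_smul]
      · rw [smul_zero]
    rw [e1, e2, smul_add, smul_add, e3, zero_add, hfγ]
  -- f ξ' is a full trace
  have hlast : ∀ s, f • ξ' s = ∑ h : G, if h ∈ H then cg h (lm S' a ∘ₗ ξ) s else 0 := by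
    intro s
    have e1 : ∀ g ∈ H, cnj g a • ξ' s = ∑ d : D, cg (g * d) (lm S' a ∘ₗ ξ) s := by
      intro g hg
      have e2 : ξ' s = (sg g : MonoidAlgebra k G) • ξ' ((sg g⁻¹ : MonoidAlgebra k G) • s) := by
        conv_lhs => rw [← hξH g hg]
        rfl
      rw [e2, ← mul_smul, ← sg_mul_eq, mul_smul, hξ, LinearMap.sum_apply, Finset.smul_sum, Finset.smul_sum]
      refine Finset.sum_congr rfl fun d _ => ?_
      rw [cg_mul, cg_apply g, cg_apply (d : G), cg_apply (d : G), LinearMap.comp_apply, lm_apply]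
      congr 1
      have e5 : (a * sg (d : G) : MonoidAlgebra k G) = sg (d : G) * a := by rw [sg_mul_eq, haD d d.2]
      rw [← mul_smul a, e5, mul_smul]
    rw [hfsum]
    haveI : Fintype (G ⧸ D) := Fintype.ofFinite _
    rw [sum_cosets D (fun h => if h ∈ H then cg h (lm S' a ∘ₗ ξ) s else 0)]
    unfold cos
    refine Finset.sum_congr (by ext; simp) fun q _ => ?_
    beta_reduce
    by_cases hq : q.out ∈ H
    · rw [if_pos hq, e1 _ hq]
      refine Finset.sum_congr rfl fun d _ => ?_
      rw [if_pos ((hHr d.2).2 hq)]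
    · rw [if_neg hq, Finset.sum_eq_zero]
      intro d _
      rw [if_neg (fun h => hq ((hHr d.2).1 h))]
  refine ⟨-((lm S' a ∘ₗ ξ) ∘ₗ lm S f), fun s => ?_⟩
  have e4 : ∑ h : G, (if h ∈ H then cg h (-((lm S' a ∘ₗ ξ) ∘ₗ lm S f)) s else 0) =
      - ∑ h : G, if h ∈ H then cg h (lm S' a ∘ₗ ξ) (f • s) else 0 := by
    rw [← Finset.sum_neg_distrib]
    refine Finset.sum_congr rfl fun h _ => ?_
    split_ifs with hh
    · rw [map_neg, LinearMap.neg_apply, cg_apply, cg_apply, LinearMap.comp_apply _ (lm S f), lm_apply]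
      congr 3
      rw [← mul_smul, ← mul_smul]
      congr 1
      have := sg_mul_eq h⁻¹ f
      rw [hfH _ (H.inv_mem hh)] at this
      exact this.symm
    · rw [neg_zero]
  rw [e4, ← hlast, hpart, hγf', add_neg_cancel_right]

end maps

end Cfsg.Agent.H25.Cya
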