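import Mathlib
import Cfsg.Agent.H25_Cya

/-!
H25_Cyb: seriality. Subspaces stable under a subgroup, a normal nilpotent element, and the
splitting off of a uniserial summand above a simple submodule.
-/

set_option autoImplicit false
set_option linter.unusedSectionVars false

namespace Cfsg.Agent.H25.Cyb

open Module Cfsg.Agent.H25.KG Cfsg.Agent.H25.Cya Cfsg.Agent.H9.BrMod4

variable {k : Type*} [Field k] {G : Type*} [Group G] [Fintype G]

/-- a normal element of the group algebra of a subgroup -/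
structure NZ (H : Subgroup G) (z : MonoidAlgebra k G) : Prop where
  supp : Supp H z
  l : ∀ a, Supp H a → ∃ w, Supp H w ∧ a * z = z * w
  r : ∀ a, Supp H a → ∃ w, Supp H w ∧ z * a = w * z

theorem NZ.pow {H : Subgroup G} {z : MonoidAlgebra k G} (h : NZ H z) (n : ℕ) : NZ H (z ^ n) := by
  induction n with
  | zero =>
    rw [pow_zero]
    exact ⟨Supp.one H, fun a ha => ⟨a, ha, by rw [mul_one, one_mul]⟩, fun a ha => ⟨a, ha, by rw [mul_one, one_mul]⟩⟩
  | succ n ih =>
    rw [pow_succ]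
    refine ⟨ih.supp.mul h.supp, fun a ha => ?_, fun a ha => ?_⟩
    · obtain ⟨w, hw, e1⟩ := ih.l a ha
      obtain ⟨w', hw', e2⟩ := h.l w hw
      exact ⟨w', hw', by rw [← mul_assoc, e1, mul_assoc, e2, ← mul_assoc]⟩
    · obtain ⟨w, hw, e1⟩ := h.r a ha
      obtain ⟨w', hw', e2⟩ := ih.r w hw
      exact ⟨w', hw', by rw [mul_assoc, e1, ← mul_assoc, e2, mul_assoc]⟩

variable {S : Type*} [AddCommGroup S] [Module (MonoidAlgebra k G) S] [Module k S]
  [IsScalarTower k (MonoidAlgebra k G) S]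

/-- stability under a subgroup -/
def St (H : Subgroup G) (U : Submodule k S) : Prop :=
  ∀ h ∈ H, ∀ u ∈ U, (sg h : MonoidAlgebra k G) • u ∈ U

theorem smul_eq_sum (a : MonoidAlgebra k G) (s : S) :
    a • s = ∑ g : G, a.coeff g • ((sg g : MonoidAlgebra k G) • s) := by
  have := congrArg (fun T : Module.End k S => T s) (lsmul_eq_sum (k := k) S a)
  simp only [LinearMap.sum_apply, LinearMap.smul_apply] at this
  exact this

theorem St.smul {H : Subgroup G} {U : Submodule k S} (hU : St H U) {a : MonoidAlgebra k G} (ha : Supp H a)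
    {u : S} (hu : u ∈ U) : a • u ∈ U := by
  rw [smul_eq_sum]
  refine U.sum_mem fun g _ => ?_
  by_cases hg : a.coeff g = 0
  · rw [hg, zero_smul]; exact U.zero_mem
  · exact U.smul_mem _ (hU g (ha g hg) u hu)

theorem St.inf {H : Subgroup G} {U V : Submodule k S} (hU : St H U) (hV : St H V) : St H (U ⊓ V) :=
  fun h hh _ hu => ⟨hU h hh _ hu.1, hV h hh _ hu.2⟩

theorem St.sup {H : Subgroup G} {U V : Submodule k S} (hU : St H U) (hV : St H V) : St H (U ⊔ V) := by
  intro h hh u hu
  obtain ⟨x, hx, y, hy, rfl⟩ := Submodule.mem_sup.1 hu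
  rw [smul_add]
  exact Submodule.add_mem_sup (hU h hh x hx) (hV h hh y hy)

theorem St.bot (H : Subgroup G) : St H (⊥ : Submodule k S) := by
  intro h _ u hu
  rw [Submodule.mem_bot] at hu ⊢
  rw [hu, smul_zero]

theorem supp_sg {H : Subgroup G} {h : G} (hh : h ∈ H) : Supp H (sg h : MonoidAlgebra k G) := by
  classical
  intro x hx
  rw [sg_c] at hx
  split_ifs at hx with e
  · rw [← e]; exact hh
  · exact absurd rfl hx

theorem St.map {H : Subgroup G} {U : Submodule k S} (hU : St H U) {z : MonoidAlgebra k G} (hz : NZ H z) :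
    St H (U.map (lm S z)) := by
  intro h hh u hu
  obtain ⟨x, hx, rfl⟩ := Submodule.mem_map.1 hu
  obtain ⟨w, hw, e⟩ := hz.l _ (supp_sg hh)
  refine Submodule.mem_map.2 ⟨w • x, hU.smul hw hx, ?_⟩
  rw [lm_apply, lm_apply, ← mul_smul, ← mul_smul, e]

theorem St.comap {H : Subgroup G} {U : Submodule k S} (hU : St H U) {z : MonoidAlgebra k G} (hz : NZ H z) :
    St H (U.comap (lm S z)) := by
  intro h hh u hu
  obtain ⟨w, hw, e⟩ := hz.r _ (supp_sg hh)
  rw [Submodule.mem_comap, lm_apply] at hu ⊢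
  rw [← mul_smul, e, mul_smul]
  exact hU.smul hw hu

/-- simple stable subspaces -/
structure Smp (H : Subgroup G) (U : Submodule k S) : Prop where
  st : St H U
  ne : U ≠ ⊥
  simple : ∀ U' ≤ U, St H U' → U' = ⊥ ∨ U' = U

/-- semisimplicity of the sections killed by `z` -/
def SS (H : Subgroup G) (z : MonoidAlgebra k G) (V : Submodule k S) : Prop :=
  ∀ X Y K : Submodule k S, St H X → St H Y → St H K → X ≤ Y → Y ≤ K → K ≤ V → K.map (lm S z) ≤ X →
    ∃ Y' : Submodule k S, St H Y' ∧ X ≤ Y' ∧ Y' ≤ K ∧ Y ⊔ Y' = K ∧ Y ⊓ Y' = X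

theorem lm_pow_add (z : MonoidAlgebra k G) (i j : ℕ) (s : S) : z ^ (i + j) • s = z ^ i • z ^ j • s := by
  rw [pow_add, mul_smul]

theorem Smp.kill {H : Subgroup G} {U : Submodule k S} (hU : Smp H U) {z : MonoidAlgebra k G} (hz : NZ H z)
    (hn : ∃ n : ℕ, ∀ v ∈ U, z ^ n • v = 0) : ∀ u ∈ U, z • u = 0 := by
  obtain ⟨n, hn⟩ := hn
  have h1 : U.map (lm S z) ≤ U := by
    rintro _ ⟨u, hu, rfl⟩
    exact hU.st.smul hz.supp hu
  rcases hU.simple _ h1 (hU.st.map hz) with h | h
  · intro u hu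
    have : z • u ∈ U.map (lm S z) := ⟨u, hu, rfl⟩
    rw [h] at this
    exact (Submodule.mem_bot k).1 this
  · exfalso
    have h2 : ∀ i : ℕ, ∀ u ∈ U, ∃ v ∈ U, z ^ i • v = u := by
      intro i
      induction i with
      | zero => intro u hu; exact ⟨u, hu, by rw [pow_zero, one_smul]⟩
      | succ i ih =>
        intro u hu
        obtain ⟨v, hv, e⟩ := ih u hu
        rw [← h] at hv
        obtain ⟨w, hw, e'⟩ := hv
        rw [lm_apply] at e'
        exact ⟨w, hw, by rw [lm_pow_add, pow_one, e', e]⟩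
    apply hU.ne
    rw [Submodule.eq_bot_iff]
    intro u hu
    obtain ⟨v, hv, e⟩ := h2 n u hu
    rw [← e, hn v hv]

/-- the serial lemma -/
theorem serial [FiniteDimensional k S] {H : Subgroup G} {z : MonoidAlgebra k G} (hz : NZ H z) {V T : Submodule k S}
    (hV : St H V) (hT : Smp H T) (hTV : T ≤ V) (hn : ∃ n : ℕ, ∀ v ∈ V, z ^ n • v = 0) (hss : SS H z V) :
    ∃ W X : Submodule k S, St H W ∧ St H X ∧ W ⊔ X = V ∧ W ⊓ X = ⊥ ∧ T ≤ W ∧
      ∀ U : Submodule k S, Smp H U → U ≤ W → U = T := by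
  classical
  obtain ⟨n, hn⟩ := hn
  have hmono : ∀ {U U' : Submodule k S}, U ≤ U' → ∀ i : ℕ, U.map (lm S (z ^ i)) ≤ U'.map (lm S (z ^ i)) :=
    fun h i => Submodule.map_mono h
  have hstep : ∀ (U : Submodule k S) (i j : ℕ), (U.map (lm S (z ^ j))).map (lm S (z ^ i)) =
      U.map (lm S (z ^ (i + j))) := by
    intro U i j
    rw [← Submodule.map_comp]
    congr 1
    ext s
    rw [LinearMap.comp_apply, lm_apply, lm_apply, lm_apply, lm_pow_add]
  have hself : ∀ {U : Submodule k S}, St H U → ∀ i : ℕ, U.map (lm S (z ^ i)) ≤ U := by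
    intro U hU i
    rintro _ ⟨u, hu, rfl⟩
    exact hU.smul (hz.pow i).supp hu
  have hTn : ∀ U : Submodule k S, Smp H U → U ≤ V → ∀ u ∈ U, z • u = 0 := fun U hU hUV =>
    hU.kill hz ⟨n, fun v hv => hn v (hUV hv)⟩
  -- the level m
  have hex : ∃ i : ℕ, ¬ T ≤ V.map (lm S (z ^ i)) := by
    refine ⟨n, fun h => hT.ne ?_⟩
    rw [Submodule.eq_bot_iff]
    intro t ht
    obtain ⟨v, hv, rfl⟩ := h ht
    exact hn v hv
  obtain ⟨m, hm⟩ : ∃ m, Nat.find hex = m + 1 := by
    refine Nat.exists_eq_succ_of_ne_zero fun h => ?_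
    have := Nat.find_spec hex
    rw [h, pow_zero] at this
    apply this
    intro t ht
    exact ⟨t, hTV ht, by rw [lm_apply, one_smul]⟩
  have hm1 : ¬ T ≤ V.map (lm S (z ^ (m + 1))) := by
    have := Nat.find_spec hex
    rwa [hm] at this
  have hm0 : T ≤ V.map (lm S (z ^ m)) := by
    by_contra h
    have := Nat.find_min' hex h
    omega
  -- W
  obtain ⟨W, ⟨hW, hWV, hTW⟩, hWmin⟩ := WellFounded.has_min (wellFounded_lt : WellFounded fun a b : Submodule k S => a < b)
    {W | St H W ∧ W ≤ V ∧ T ≤ W.map (lm S (z ^ m))} ⟨V, hV, le_refl V, hm0⟩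
  have hWmin' : ∀ Y : Submodule k S, St H Y → Y ≤ W → T ≤ Y.map (lm S (z ^ m)) → Y = W := by
    intro Y hY hYW hTY
    by_contra hne
    exact hWmin Y ⟨hY, hYW.trans hWV, hTY⟩ (lt_of_le_of_ne hYW hne)
  have hWT : W.map (lm S (z ^ m)) = T := by
    refine le_antisymm ?_ hTW
    have h1 := hWmin' (W ⊓ T.comap (lm S (z ^ m))) (hW.inf (hT.st.comap (hz.pow m))) inf_le_left (by
      intro t ht
      obtain ⟨w, hw, e⟩ := hTW ht
      exact ⟨w, ⟨hw, by show lm S (z ^ m) w ∈ T; rw [e]; exact ht⟩, e⟩)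
    rw [Submodule.map_le_iff_le_comap, ← h1]
    exact inf_le_right
  -- W / zW is simple
  have hW1 : ∀ Y : Submodule k S, St H Y → W.map (lm S z) ≤ Y → Y ≤ W → Y = W.map (lm S z) ∨ Y = W := by
    intro Y hY h1 h2
    obtain ⟨Y', hY', h3, h4, h5, h6⟩ := hss (W.map (lm S z)) Y W (hW.map hz) hY hW h1 h2 hWV le_rfl
    have h7 : Y.map (lm S (z ^ m)) ≤ T := (hmono h2 m).trans hWT.le
    rcases hT.simple _ h7 (hY.map (hz.pow m)) with h8 | h8
    · left
      have h9 : W.map (lm S (z ^ m)) = Y.map (lm S (z ^ m)) ⊔ Y'.map (lm S (z ^ m)) := by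
        rw [← Submodule.map_sup, h5]
      rw [h8, bot_sup_eq, hWT] at h9
      have h10 := hWmin' Y' hY' h4 h9.le
      rw [h10, inf_eq_left.2 h2] at h6
      exact h6
    · right
      exact hWmin' Y hY h2 h8.ge
  -- Nakayama
  have hnak : ∀ Y : Submodule k S, St H Y → Y ≤ W → Y ⊔ W.map (lm S z) = W → Y = W := by
    intro Y hY h1 h2
    have h3 : ∀ i : ℕ, W ≤ Y ⊔ W.map (lm S (z ^ i)) := by
      intro i
      induction i with
      | zero =>
        refine le_trans ?_ le_sup_right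
        intro w hw
        exact ⟨w, hw, by rw [lm_apply, pow_zero, one_smul]⟩
      | succ i ih =>
        refine ih.trans (sup_le le_sup_left ?_)
        conv_lhs => rw [← h2]
        rw [Submodule.map_sup]
        refine sup_le ((hself hY i).trans le_sup_left) ?_
        have := hstep W i 1
        rw [pow_one] at this
        rw [this]
        exact le_sup_right
    refine le_antisymm h1 ((h3 n).trans (sup_le le_rfl ?_))
    rintro _ ⟨w, hw, rfl⟩
    rw [lm_apply, hn w (hWV hw)]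
    exact Y.zero_mem
  -- the kernel of z on W
  have hker : ∀ w ∈ W, z • w = 0 → w ∈ T := by
    intro w hw hzw
    by_cases hw0 : w = 0
    · rw [hw0]; exact T.zero_mem
    have hex2 : ∃ i : ℕ, w ∉ W.map (lm S (z ^ i)) := by
      refine ⟨n, ?_⟩
      rintro ⟨v, hv, e⟩
      apply hw0
      rw [← e, lm_apply, hn v (hWV hv)]
    obtain ⟨i, hi⟩ : ∃ i, Nat.find hex2 = i + 1 := by
      refine Nat.exists_eq_succ_of_ne_zero fun h => ?_
      have := Nat.find_spec hex2
      rw [h, pow_zero] at this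
      exact this ⟨w, hw, by rw [lm_apply, one_smul]⟩
    have hi1 : w ∉ W.map (lm S (z ^ (i + 1))) := by
      have := Nat.find_spec hex2
      rwa [hi] at this
    have hi0 : w ∈ W.map (lm S (z ^ i)) := by
      by_contra h
      have := Nat.find_min' hex2 h
      omega
    obtain ⟨w', hw', e⟩ := hi0
    rw [lm_apply] at e
    have h1 : z ^ (i + 1) • w' = 0 := by
      rw [add_comm, lm_pow_add, e, pow_one, hzw]
    set Y := W ⊓ (⊥ : Submodule k S).comap (lm S (z ^ (i + 1))) with hYdef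
    have hY : St H Y := hW.inf ((St.bot H).comap (hz.pow _))
    have hw'Y : w' ∈ Y := ⟨hw', h1⟩
    have hzWle : W.map (lm S z) ≤ W := by
      have := hself hW 1
      rwa [pow_one] at this
    rcases hW1 (Y ⊔ W.map (lm S z)) (hY.sup (hW.map hz)) le_sup_right (sup_le inf_le_left hzWle) with h2 | h2
    · exfalso
      have h3 : w' ∈ W.map (lm S z) := by
        rw [← h2]; exact (le_sup_left : Y ≤ Y ⊔ W.map (lm S z)) hw'Y
      obtain ⟨w'', hw'', e'⟩ := h3
      rw [lm_apply] at e'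
      apply hi1
      exact ⟨w'', hw'', by rw [lm_apply, lm_pow_add, pow_one, e', e]⟩
    · have h3 := hnak Y hY inf_le_left h2
      have h4 : ∀ v ∈ W, z ^ (i + 1) • v = 0 := by
        intro v hv
        rw [← h3] at hv
        exact hv.2
      have h5 : m ≤ i := by
        by_contra hlt
        push Not at hlt
        apply hT.ne
        rw [← hWT, Submodule.eq_bot_iff]
        rintro _ ⟨v, hv, rfl⟩
        rw [lm_apply]
        obtain ⟨c, hc⟩ := Nat.exists_eq_add_of_le (show i + 1 ≤ m by omega)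
        rw [hc, add_comm, lm_pow_add, h4 v hv, smul_zero]
      obtain ⟨c, hc⟩ := Nat.exists_eq_add_of_le h5
      rw [← hWT, ← e, hc, lm_pow_add]
      exact ⟨z ^ c • w', hW.smul (hz.pow c).supp hw', rfl⟩
  -- X
  have hbase : V.map (lm S (z ^ (m + 1))) ⊓ T = ⊥ := by
    rcases hT.simple _ (inf_le_right : V.map (lm S (z ^ (m + 1))) ⊓ T ≤ T)
      ((hV.map (hz.pow _)).inf hT.st) with h | h
    · exact h
    · exact absurd (inf_eq_right.1 h) hm1
  obtain ⟨X, ⟨hX, hXb, hXV, hXT⟩, hXmax⟩ := WellFounded.has_min (wellFounded_gt : WellFounded fun a b : Submodule k S => a > b)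
    {X | St H X ∧ V.map (lm S (z ^ (m + 1))) ≤ X ∧ X ≤ V ∧ X ⊓ T = ⊥}
    ⟨V.map (lm S (z ^ (m + 1))), hV.map (hz.pow _), le_rfl, hself hV _, hbase⟩
  have hWX : W ⊓ X = ⊥ := by
    rw [Submodule.eq_bot_iff]
    intro u hu
    by_contra hu0
    have hex3 : ∃ i : ℕ, z ^ i • u = 0 := ⟨n, hn u (hWV hu.1)⟩
    obtain ⟨j, hj⟩ : ∃ j, Nat.find hex3 = j + 1 := by
      refine Nat.exists_eq_succ_of_ne_zero fun h => ?_
      have := Nat.find_spec hex3
      rw [h, pow_zero, one_smul] at this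
      exact hu0 this
    have hj1 : z ^ (j + 1) • u = 0 := by
      have := Nat.find_spec hex3
      rwa [hj] at this
    have hj0 : z ^ j • u ≠ 0 := by
      intro h
      have := Nat.find_min' hex3 h
      omega
    have h1 : z ^ j • u ∈ W := hW.smul (hz.pow j).supp hu.1
    have h2 : z ^ j • u ∈ X := hX.smul (hz.pow j).supp hu.2
    have h3 : z • z ^ j • u = 0 := by
      rw [add_comm, lm_pow_add, pow_one] at hj1
      exact hj1
    have h4 : z ^ j • u ∈ X ⊓ T := ⟨h2, hker _ h1 h3⟩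
    rw [hXT, Submodule.mem_bot] at h4
    exact hj0 h4
  have hKX : V ⊓ X.comap (lm S z) = T ⊔ X := by
    have hzX : X ≤ X.comap (lm S z) := fun x hx => by
      rw [Submodule.mem_comap, lm_apply]; exact hX.smul hz.supp hx
    have hzT : T ≤ X.comap (lm S z) := fun t ht => by
      rw [Submodule.mem_comap, lm_apply, hTn T hT hTV t ht]; exact X.zero_mem
    obtain ⟨Y', hY', h3, h4, h5, h6⟩ := hss X (T ⊔ X) (V ⊓ X.comap (lm S z)) hX (hT.st.sup hX)
      (hV.inf (hX.comap hz)) le_sup_right (sup_le (le_inf hTV hzT) (le_inf hXV hzX)) inf_le_left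
      (by rw [Submodule.map_le_iff_le_comap]; exact inf_le_right)
    by_cases hYX : Y' = X
    · rw [← h5, hYX, sup_assoc, sup_idem]
    · exfalso
      have h7 : Y' ⊓ T ≠ ⊥ := by
        intro h7
        exact hXmax Y' ⟨hY', hXb.trans h3, h4.trans inf_le_left, h7⟩ (lt_of_le_of_ne h3 (Ne.symm hYX))
      rcases hT.simple _ (inf_le_right : Y' ⊓ T ≤ T) (hY'.inf hT.st) with h8 | h8
      · exact h7 h8
      · have h9 : T ≤ X := by
          rw [← h6]
          exact le_inf le_sup_left (inf_eq_right.1 h8)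
        apply hT.ne
        rw [← hXT, inf_eq_right.2 h9]
  have hsup : W ⊔ X = V := by
    refine le_antisymm (sup_le hWV hXV) ?_
    have h1 : ∀ i : ℕ, i ≤ m + 1 → ∀ v ∈ V, z ^ i • v ∈ X → v ∈ W ⊔ X := by
      intro i
      induction i with
      | zero =>
        intro _ v _ hv
        rw [pow_zero, one_smul] at hv
        exact (le_sup_right : X ≤ W ⊔ X) hv
      | succ i ih =>
        intro hi v hv hzv
        have h2 : z ^ i • v ∈ V ⊓ X.comap (lm S z) := by
          refine ⟨hV.smul (hz.pow i).supp hv, ?_⟩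
          rw [add_comm, lm_pow_add, pow_one] at hzv
          exact hzv
        rw [hKX] at h2
        obtain ⟨t, ht, x, hx, e⟩ := Submodule.mem_sup.1 h2
        rw [← hWT] at ht
        obtain ⟨w, hw, rfl⟩ := ht
        obtain ⟨c, hc⟩ := Nat.exists_eq_add_of_le (show i ≤ m by omega)
        rw [lm_apply, hc, lm_pow_add] at e
        have hcw : z ^ c • w ∈ W := hW.smul (hz.pow c).supp hw
        have h3 := ih (by omega) (v - z ^ c • w) (V.sub_mem hv (hWV hcw)) (by
          rw [smul_sub, ← e, add_sub_cancel_left]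
          exact hx)
        have h4 := (W ⊔ X).add_mem h3 ((le_sup_left : W ≤ W ⊔ X) hcw)
        rwa [sub_add_cancel] at h4
    intro v hv
    exact h1 (m + 1) le_rfl v hv (hXb ⟨v, hv, rfl⟩)
  refine ⟨W, X, hW, hX, hsup, hWX, ?_, ?_⟩
  · rw [← hWT]; exact hself hW m
  · intro U hU hUW
    have h1 : U ≤ T := fun u hu => hker u (hUW hu) (hTn U hU (hUW.trans hWV) u hu)
    rcases hT.simple U h1 hU.st with h | h
    · exact absurd h hU.ne
    · exact h

omit [Module (MonoidAlgebra k G) S] [IsScalarTower k (MonoidAlgebra k G) S] in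
theorem exists_prj {W X : Submodule k S} (h : W ⊓ X = ⊥) :
    ∃ P : S →ₗ[k] S, (∀ w ∈ W, P w = w) ∧ (∀ x ∈ X, P x = 0) ∧ ∀ s, P s ∈ W := by
  obtain ⟨X', hXX', hc⟩ := (disjoint_iff.2 (by rw [inf_comm]; exact h) : Disjoint X W).exists_isCompl
  refine ⟨W.subtype ∘ₗ W.projectionOnto X' hc.symm, ?_, ?_, fun s => Subtype.property _⟩
  · intro w hw
    rw [LinearMap.comp_apply]
    have := Submodule.projectionOnto_apply_left hc.symm ⟨w, hw⟩
    simp only at this
    rw [this]
    rfl
  · intro x hx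
    have := Submodule.projectionOnto_apply_right hc.symm ⟨x, hXX' hx⟩
    simp only at this
    rw [LinearMap.comp_apply, this, map_zero]

/-- the projection onto the uniserial summand -/
theorem serial_end [FiniteDimensional k S] {H : Subgroup G} {z f : MonoidAlgebra k G} (hz : NZ H z)
    (hff : f * f = f) (hfH : Fix H f) {T : Submodule k S} (hT : Smp H T) (hTf : ∀ t ∈ T, f • t = t)
    (hn : ∃ n : ℕ, ∀ v : S, f • v = v → z ^ n • v = 0)
    (hss : SS H z (LinearMap.range (lm (k := k) S f))) :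
    ∃ δ : S →ₗ[k] S, (∀ s, δ s = f • δ (f • s)) ∧
      (∀ h ∈ H, ∀ s, δ ((sg h : MonoidAlgebra k G) • s) = (sg h : MonoidAlgebra k G) • δ s) ∧
      (∀ t ∈ T, δ t = t) ∧
      ∀ U : Submodule k S, Smp H U → (∀ u ∈ U, f • u = u) →
        (∀ u ∈ U, δ u = 0) ∨ (U.map δ = T ∧ ∀ u ∈ U, δ u = 0 → u = 0) := by
  classical
  set V := LinearMap.range (lm (k := k) S f) with hVdef
  have hmem : ∀ s : S, s ∈ V ↔ f • s = s := by
    intro s
    constructor
    · rintro ⟨t, rfl⟩
      rw [lm_apply, ← mul_smul, hff]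
    · intro h
      exact ⟨s, h⟩
  have hcomm : ∀ h ∈ H, ∀ s : S, f • (sg h : MonoidAlgebra k G) • s = (sg h : MonoidAlgebra k G) • f • s := by
    intro h hh s
    rw [← mul_smul, ← mul_smul, sg_mul_eq, hfH h hh]
  have hV : St H V := by
    intro h hh v hv
    rw [hmem] at hv ⊢
    rw [hcomm h hh, hv]
  obtain ⟨n, hn⟩ := hn
  obtain ⟨W, X, hW, hX, hsup, hinf, hTW, hU⟩ := serial hz hV hT (fun t ht => (hmem t).2 (hTf t ht))
    ⟨n, fun v hv => hn v ((hmem v).1 hv)⟩ hss
  have hWV : W ≤ V := hsup ▸ le_sup_left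
  have hXV : X ≤ V := hsup ▸ le_sup_right
  obtain ⟨P, hPW, hPX, hPm⟩ := exists_prj hinf
  have hPh : ∀ h ∈ H, ∀ v ∈ V, P ((sg h : MonoidAlgebra k G) • v) = (sg h : MonoidAlgebra k G) • P v := by
    intro h hh v hv
    rw [← hsup] at hv
    obtain ⟨w, hw, x, hx, rfl⟩ := Submodule.mem_sup.1 hv
    rw [smul_add, map_add, map_add, hPW _ (hW h hh w hw), hPX _ (hX h hh x hx), hPW w hw, hPX x hx, add_zero,
      add_zero]
  have hfV : ∀ s : S, f • s ∈ V := fun s => ⟨s, rfl⟩
  refine ⟨P ∘ₗ lm S f, ?_, ?_, ?_, ?_⟩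
  · intro s
    rw [LinearMap.comp_apply, LinearMap.comp_apply, lm_apply, lm_apply, ← mul_smul f f, hff]
    exact ((hmem _).1 (hWV (hPm _))).symm
  · intro h hh s
    rw [LinearMap.comp_apply, LinearMap.comp_apply, lm_apply, lm_apply, hcomm h hh, hPh h hh _ (hfV s)]
  · intro t ht
    rw [LinearMap.comp_apply, lm_apply, hTf t ht, hPW t (hTW ht)]
  · intro U hUs hUf
    have hδ : ∀ u ∈ U, (P ∘ₗ lm S f) u = P u := by
      intro u hu
      rw [LinearMap.comp_apply, lm_apply, hUf u hu]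
    have hUV : U ≤ V := fun u hu => (hmem u).2 (hUf u hu)
    have hst1 : St H (U ⊓ LinearMap.ker P) := by
      intro h hh u hu
      refine ⟨hUs.st h hh u hu.1, ?_⟩
      show P _ = 0
      rw [hPh h hh u (hUV hu.1), LinearMap.mem_ker.1 hu.2, smul_zero]
    rcases hUs.simple _ inf_le_left hst1 with h1 | h1
    · right
      have h2 : ∀ u ∈ U, P u = 0 → u = 0 := by
        intro u hu hu0
        have : u ∈ U ⊓ LinearMap.ker P := ⟨hu, hu0⟩
        rw [h1, Submodule.mem_bot] at this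
        exact this
      have hmapeq : U.map (P ∘ₗ lm S f) = U.map P := by
        ext s
        simp only [Submodule.mem_map]
        constructor
        · rintro ⟨u, hu, rfl⟩; exact ⟨u, hu, (hδ u hu).symm⟩
        · rintro ⟨u, hu, rfl⟩; exact ⟨u, hu, hδ u hu⟩
      refine ⟨?_, fun u hu h => h2 u hu (by rw [← hδ u hu]; exact h)⟩
      rw [hmapeq]
      refine hU _ ⟨?_, ?_, ?_⟩ ?_
      · intro h hh s hs
        obtain ⟨u, hu, rfl⟩ := hs
        exact ⟨_, hUs.st h hh u hu, hPh h hh u (hUV hu)⟩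
      · intro h0
        apply hUs.ne
        rw [Submodule.eq_bot_iff]
        intro u hu
        apply h2 u hu
        have : P u ∈ U.map P := ⟨u, hu, rfl⟩
        rw [h0, Submodule.mem_bot] at this
        exact this
      · intro Y hY hYst
        have hst2 : St H (U ⊓ Y.comap P) := by
          intro h hh u hu
          refine ⟨hUs.st h hh u hu.1, ?_⟩
          show P _ ∈ Y
          rw [hPh h hh u (hUV hu.1)]
          exact hYst h hh _ hu.2
        rcases hUs.simple _ inf_le_left hst2 with h3 | h3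
        · left
          rw [Submodule.eq_bot_iff]
          intro y hy
          obtain ⟨u, hu, rfl⟩ := hY hy
          have : u ∈ U ⊓ Y.comap P := ⟨hu, hy⟩
          rw [h3, Submodule.mem_bot] at this
          rw [this, map_zero]
        · right
          refine le_antisymm hY ?_
          rintro _ ⟨u, hu, rfl⟩
          have : u ∈ U ⊓ Y.comap P := by rw [h3]; exact hu
          exact this.2
      · rintro _ ⟨u, _, rfl⟩
        exact hPm u
    · left
      intro u hu
      rw [hδ u hu]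
      have : u ∈ U ⊓ LinearMap.ker P := by rw [h1]; exact hu
      exact this.2

end Cfsg.Agent.H25.Cyb
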