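import Mathlib
import Cfsg.Agent.H25_Cyb
import Cfsg.Agent.H25_Orbit
import Cfsg.Agent.H25_KGPair

/-!
H25_Cyc: maps from a simple module of the stabiliser of a Brauer pair into simple modules of the group
which do not factor through projectives: existence and uniqueness.
-/

set_option autoImplicit false
set_option linter.unusedSectionVars false

namespace Cfsg.Agent.H25.Cyc

open Module Cfsg.Agent.H25.KG Cfsg.Agent.H25.Cya Cfsg.Agent.H25.Cyb Cfsg.Agent.H9.BrMod4

universe u v w

variable {k : Type u} [Field k] {G : Type v} [Group G] [Fintype G]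

section defs

variable {S S' : Type*} [AddCommGroup S] [Module (MonoidAlgebra k G) S] [Module k S]
  [IsScalarTower k (MonoidAlgebra k G) S] [AddCommGroup S'] [Module (MonoidAlgebra k G) S'] [Module k S']
  [IsScalarTower k (MonoidAlgebra k G) S']

/-- equivariance on a stable subspace of the group algebra -/
def HomOn (H : Subgroup G) (L : Submodule k (MonoidAlgebra k G)) (γ : MonoidAlgebra k G →ₗ[k] S) : Prop :=
  ∀ h ∈ H, ∀ x ∈ L, γ ((sg h : MonoidAlgebra k G) • x) = (sg h : MonoidAlgebra k G) • γ x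

open Classical in
/-- full trace maps on a stable subspace -/
def PrOn (H : Subgroup G) (L : Submodule k (MonoidAlgebra k G)) (γ : MonoidAlgebra k G →ₗ[k] S) : Prop :=
  ∃ β : MonoidAlgebra k G →ₗ[k] S, ∀ x ∈ L, γ x = ∑ h : G, if h ∈ H then cg h β x else 0

variable {H : Subgroup G} {L : Submodule k (MonoidAlgebra k G)}

theorem PrOn.congr {γ γ' : MonoidAlgebra k G →ₗ[k] S} (h : PrOn H L γ) (e : ∀ x ∈ L, γ' x = γ x) : PrOn H L γ' := by
  obtain ⟨β, hβ⟩ := h
  exact ⟨β, fun x hx => by rw [e x hx, hβ x hx]⟩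

theorem PrOn.smul {γ : MonoidAlgebra k G →ₗ[k] S} (h : PrOn H L γ) (c : k) : PrOn H L (c • γ) := by
  classical
  obtain ⟨β, hβ⟩ := h
  refine ⟨c • β, fun x hx => ?_⟩
  rw [LinearMap.smul_apply, hβ x hx, Finset.smul_sum]
  refine Finset.sum_congr rfl fun h _ => ?_
  split_ifs
  · rw [map_smul, LinearMap.smul_apply]
  · rw [smul_zero]

theorem PrOn.add {γ γ' : MonoidAlgebra k G →ₗ[k] S} (h : PrOn H L γ) (h' : PrOn H L γ') : PrOn H L (γ + γ') := by
  classical
  obtain ⟨β, hβ⟩ := h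
  obtain ⟨β', hβ'⟩ := h'
  refine ⟨β + β', fun x hx => ?_⟩
  rw [LinearMap.add_apply, hβ x hx, hβ' x hx, ← Finset.sum_add_distrib]
  refine Finset.sum_congr rfl fun h _ => ?_
  split_ifs
  · rw [map_add, LinearMap.add_apply]
  · rw [add_zero]

theorem PrOn.comp {γ : MonoidAlgebra k G →ₗ[k] S} (h : PrOn H L γ) {φ : S →ₗ[k] S'}
    (hφ : ∀ g ∈ H, ∀ s, φ ((sg g : MonoidAlgebra k G) • s) = (sg g : MonoidAlgebra k G) • φ s) :
    PrOn H L (φ ∘ₗ γ) := by
  classical
  obtain ⟨β, hβ⟩ := h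
  refine ⟨φ ∘ₗ β, fun x hx => ?_⟩
  rw [LinearMap.comp_apply, hβ x hx, map_sum]
  refine Finset.sum_congr rfl fun h _ => ?_
  split_ifs with hh
  · rw [cg_apply, cg_apply, LinearMap.comp_apply, hφ h hh]
  · rw [map_zero]

/-- half exactness -/
theorem PrOn.ext {X : Type*} [AddCommGroup X] [Module (MonoidAlgebra k G) X] [Module k X]
    [IsScalarTower k (MonoidAlgebra k G) X] (hLst : St H L) (Y : Submodule (MonoidAlgebra k G) X)
    (hY : ∀ γ : MonoidAlgebra k G →ₗ[k] Y, HomOn H L γ → PrOn H L γ)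
    (hQ : ∀ γ : MonoidAlgebra k G →ₗ[k] (X ⧸ Y), HomOn H L γ → PrOn H L γ)
    (γ : MonoidAlgebra k G →ₗ[k] X) (hγ : HomOn H L γ) : PrOn H L γ := by
  classical
  set π : X →ₗ[k] X ⧸ Y := (Submodule.mkQ Y).restrictScalars k with hπ
  have hπs : Function.Surjective π := Submodule.mkQ_surjective Y
  have hπa : ∀ (a : MonoidAlgebra k G) (x : X), π (a • x) = a • π x := fun a x => map_smul (Submodule.mkQ Y) a x
  have hπ0 : ∀ x : X, π x = 0 ↔ x ∈ Y := fun x => Submodule.Quotient.mk_eq_zero Y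
  obtain ⟨β', hβ'⟩ := hQ (π ∘ₗ γ) (fun h hh x hx => by
    rw [LinearMap.comp_apply, LinearMap.comp_apply, hγ h hh x hx, hπa])
  obtain ⟨σ, hσ⟩ := LinearMap.exists_rightInverse_of_surjective π (LinearMap.range_eq_top.2 hπs)
  have hσ' : ∀ y, π (σ y) = y := fun y => LinearMap.congr_fun hσ y
  set β := σ ∘ₗ β' with hβ
  -- the full trace of β
  set τ : MonoidAlgebra k G →ₗ[k] X := ∑ h : G, if h ∈ H then cg h β else 0 with hτ
  have hτx : ∀ x, τ x = ∑ h : G, if h ∈ H then cg h β x else 0 := by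
    intro x
    rw [hτ, LinearMap.sum_apply]
    refine Finset.sum_congr rfl fun h _ => ?_
    split_ifs <;> rfl
  have hτH : ∀ h ∈ H, cg h τ = τ := by
    intro h hh
    rw [hτ, map_sum]
    have e2 : ∀ g : G, cg h (if g ∈ H then cg g β else 0) = if h * g ∈ H then cg (h * g) β else 0 := by
      intro g
      have e1 : h * g ∈ H ↔ g ∈ H :=
        ⟨fun h' => by simpa using H.mul_mem (H.inv_mem hh) h', fun h' => H.mul_mem hh h'⟩
      by_cases hg : g ∈ H
      · rw [if_pos hg, if_pos (e1.2 hg), cg_mul]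
      · rw [if_neg hg, if_neg (fun h' => hg (e1.1 h')), map_zero]
    rw [Finset.sum_congr rfl fun g _ => e2 g]
    exact Equiv.sum_comp (Equiv.mulLeft h) (fun g => if g ∈ H then cg g β else 0)
  have hτh : ∀ h ∈ H, ∀ x, τ ((sg h : MonoidAlgebra k G) • x) = (sg h : MonoidAlgebra k G) • τ x := by
    intro h hh x
    conv_lhs => rw [← hτH h hh, cg_apply, ← mul_smul, sg_inv_mul, one_smul]
  set γ₁ := γ - τ with hγ₁
  have h1 : ∀ x ∈ L, γ₁ x ∈ Y := by
    intro x hx
    rw [← hπ0, hγ₁, LinearMap.sub_apply, map_sub, sub_eq_zero]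
    have := hβ' x hx
    rw [LinearMap.comp_apply] at this
    rw [this, hτx, map_sum]
    refine Finset.sum_congr rfl fun h _ => ?_
    split_ifs with hh
    · rw [cg_apply, cg_apply, hπa, hβ, LinearMap.comp_apply, hσ']
    · rw [map_zero]
  set ι : Y →ₗ[k] X := (Submodule.subtype Y).restrictScalars k with hι
  have hιa : ∀ y : Y, ι y = (y : X) := fun y => rfl
  obtain ⟨r, hr⟩ := LinearMap.exists_leftInverse_of_injective ι (LinearMap.ker_eq_bot.2 Subtype.val_injective)
  have hr' : ∀ (x : X) (hx : x ∈ Y), r x = ⟨x, hx⟩ := fun x hx => LinearMap.congr_fun hr ⟨x, hx⟩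
  obtain ⟨β₂, hβ₂⟩ := hY (r ∘ₗ γ₁) (by
    intro h hh x hx
    have e1 : γ₁ ((sg h : MonoidAlgebra k G) • x) = (sg h : MonoidAlgebra k G) • γ₁ x := by
      rw [hγ₁, LinearMap.sub_apply, LinearMap.sub_apply, hγ h hh x hx, hτh h hh, smul_sub]
    rw [LinearMap.comp_apply, LinearMap.comp_apply, e1, hr' _ (Y.smul_mem _ (h1 x hx)), hr' _ (h1 x hx)]
    rfl)
  refine ⟨β + ι ∘ₗ β₂, fun x hx => ?_⟩
  have e2 : γ x = τ x + ι (r (γ₁ x)) := by
    rw [hr' _ (h1 x hx), hιa]
    show γ x = τ x + (γ x - τ x)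
    rw [add_sub_cancel]
  have e3 := hβ₂ x hx
  rw [LinearMap.comp_apply] at e3
  rw [e2, hτx, e3, map_sum, ← Finset.sum_add_distrib]
  refine Finset.sum_congr rfl fun h _ => ?_
  split_ifs with hh
  · rw [map_add, LinearMap.add_apply]
    rfl
  · rw [map_zero, add_zero]

end defs

section induct

variable {H : Subgroup G} {L : Submodule k (MonoidAlgebra k G)}

/-- transport along an isomorphism -/
theorem PrOn.equiv {S S' : Type*} [AddCommGroup S] [Module (MonoidAlgebra k G) S] [Module k S]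
    [IsScalarTower k (MonoidAlgebra k G) S] [AddCommGroup S'] [Module (MonoidAlgebra k G) S'] [Module k S']
    [IsScalarTower k (MonoidAlgebra k G) S'] (e : S ≃ₗ[MonoidAlgebra k G] S')
    (h : ∀ γ : MonoidAlgebra k G →ₗ[k] S', HomOn H L γ → PrOn H L γ)
    (γ : MonoidAlgebra k G →ₗ[k] S) (hγ : HomOn H L γ) : PrOn H L γ := by
  set φ : S →ₗ[k] S' := (e : S →ₗ[MonoidAlgebra k G] S').restrictScalars k with hφ
  set ψ : S' →ₗ[k] S := (e.symm : S' →ₗ[MonoidAlgebra k G] S).restrictScalars k with hψ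
  have h1 := h (φ ∘ₗ γ) (by
    intro g hg x hx
    rw [LinearMap.comp_apply, LinearMap.comp_apply, hγ g hg x hx]
    exact map_smul e _ _)
  have h2 := h1.comp (φ := ψ) (fun g _ s => map_smul e.symm _ _)
  refine h2.congr fun x _ => ?_
  exact (e.symm_apply_apply _).symm

theorem finite_of_reg {X : Type*} [AddCommGroup X] [Module (MonoidAlgebra k G) X] [Module k X]
    [IsScalarTower k (MonoidAlgebra k G) X] (x : X) (hx : Submodule.span (MonoidAlgebra k G) {x} = ⊤) :
    FiniteDimensional k X := by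
  haveI : FiniteDimensional k (MonoidAlgebra k G) := inferInstance
  refine Module.Finite.of_surjective ((LinearMap.toSpanSingleton (MonoidAlgebra k G) X x).restrictScalars k) ?_
  intro y
  have : y ∈ Submodule.span (MonoidAlgebra k G) {x} := by rw [hx]; trivial
  obtain ⟨a, ha⟩ := Submodule.mem_span_singleton.1 this
  exact ⟨a, ha⟩

theorem induct (hLst : St H L) {B : MonoidAlgebra k G}
    (hall : ∀ J : Submodule (MonoidAlgebra k G) (MonoidAlgebra k G),
      IsSimpleModule (MonoidAlgebra k G) (MonoidAlgebra k G ⧸ J) →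
      (∀ s : MonoidAlgebra k G ⧸ J, B • s = s) → ∀ γ : MonoidAlgebra k G →ₗ[k] (MonoidAlgebra k G ⧸ J),
        HomOn H L γ → PrOn H L γ) (n : ℕ) :
    ∀ (X : Type w) [AddCommGroup X] [Module (MonoidAlgebra k G) X] [Module k X]
      [IsScalarTower k (MonoidAlgebra k G) X] [FiniteDimensional k X], Module.finrank k X = n →
      (∀ s : X, B • s = s) → ∀ γ : MonoidAlgebra k G →ₗ[k] X, HomOn H L γ → PrOn H L γ := by
  classical
  induction n using Nat.strong_induction_on with
  | _ n ih =>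
    intro X _ _ _ _ _ hn hB γ hγ
    by_cases h0 : Subsingleton X
    · exact ⟨0, fun x _ => Subsingleton.elim _ _⟩
    · haveI : Nontrivial X := not_subsingleton_iff_nontrivial.1 h0
      haveI : Module.Finite (MonoidAlgebra k G) X := Module.Finite.of_restrictScalars_finite k _ _
      obtain ⟨Y, hY⟩ : ∃ Y : Submodule (MonoidAlgebra k G) X, IsCoatom Y := by
        obtain ⟨Y, hY, -⟩ := (IsCoatomic.eq_top_or_exists_le_coatom (⊥ : Submodule (MonoidAlgebra k G) X)).resolve_left
          bot_ne_top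
        exact ⟨Y, hY⟩
      haveI hsimp : IsSimpleModule (MonoidAlgebra k G) (X ⧸ Y) := isSimpleModule_iff_isCoatom.2 hY
      refine PrOn.ext hLst Y ?_ ?_ γ hγ
      · haveI : FiniteDimensional k Y := FiniteDimensional.finiteDimensional_submodule (Y.restrictScalars k)
        refine ih (Module.finrank k Y) ?_ Y rfl (fun s => Subtype.ext (hB s))
        rw [← hn]
        refine Submodule.finrank_lt (s := Y.restrictScalars k) ?_
        intro h
        apply hY.1
        rw [Submodule.eq_top_iff']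
        intro x
        have : x ∈ Y.restrictScalars k := by rw [h]; trivial
        exact this
      · haveI : Nontrivial (X ⧸ Y) := IsSimpleModule.nontrivial (MonoidAlgebra k G) _
        obtain ⟨s, hs⟩ := exists_ne (0 : X ⧸ Y)
        set T := LinearMap.toSpanSingleton (MonoidAlgebra k G) (X ⧸ Y) s with hT
        have hsurj : Function.Surjective T := IsSimpleModule.toSpanSingleton_surjective (MonoidAlgebra k G) hs
        set e := T.quotKerEquivOfSurjective hsurj with he
        have hBQ : ∀ s : X ⧸ Y, B • s = s := by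
          intro s
          obtain ⟨x, rfl⟩ := Submodule.mkQ_surjective Y s
          rw [← map_smul, hB]
        refine PrOn.equiv e.symm (hall (LinearMap.ker T) (IsSimpleModule.congr e) ?_)
        intro s
        apply e.injective
        rw [map_smul, hBQ]

/-- maps with values in `L` are not traces -/
theorem no_trace {p : ℕ} [CharP k p] {Q : Subgroup G} (hQH : Q ≤ H) (hp : p ∣ Nat.card Q)
    (hLst : St H L) (hQL : ∀ d ∈ Q, ∀ x ∈ L, (sg d : MonoidAlgebra k G) • x = x)
    (β : MonoidAlgebra k G →ₗ[k] MonoidAlgebra k G) (hβ : ∀ y, β y ∈ L) [DecidablePred (· ∈ H)]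
    {x : MonoidAlgebra k G} (hx : x ∈ L) :
    ∑ h : G, (if h ∈ H then cg h β x else 0) = 0 := by
  classical
  haveI : Fintype (G ⧸ Q) := Fintype.ofFinite _
  rw [sum_cosets Q]
  refine Finset.sum_eq_zero fun c _ => ?_
  have h1 : ∀ y : Q, (if c.out * (y : G) ∈ H then cg (c.out * (y : G)) β x else 0) =
      if c.out ∈ H then cg c.out β x else 0 := by
    intro y
    have e1 : c.out * (y : G) ∈ H ↔ c.out ∈ H :=
      ⟨fun h => by simpa using H.mul_mem h (H.inv_mem (hQH y.2)), fun h => H.mul_mem h (hQH y.2)⟩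
    by_cases hc : c.out ∈ H
    · rw [if_pos hc, if_pos (e1.2 hc), cg_apply, cg_apply, mul_inv_rev, sg_mul, sg_mul, mul_smul, mul_smul,
        hQL _ y.2 _ (hβ _), hQL _ (Q.inv_mem y.2) _ (hLst _ (H.inv_mem hc) x hx)]
    · rw [if_neg hc, if_neg (fun h => hc (e1.1 h))]
  rw [Finset.sum_congr rfl fun y _ => h1 y, Finset.sum_const, Finset.card_univ, ← Nat.card_eq_fintype_card]
  rw [← Nat.cast_smul_eq_nsmul k, (CharP.cast_eq_zero_iff k p _).2 hp, zero_smul]

theorem tr_mul {b x : MonoidAlgebra k G} (hx : Supp H x) : tr H (b * x) = tr H b * x := by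
  classical
  apply ext_c; intro y
  rw [mul_c']
  by_cases hy : y ∈ H
  · rw [tr_c_of_mem _ hy, mul_c']
    refine Finset.sum_congr rfl fun z _ => ?_
    by_cases hz : x.coeff z = 0
    · rw [hz, mul_zero, mul_zero]
    · rw [tr_c_of_mem _ (H.mul_mem hy (H.inv_mem (hx z hz)))]
  · rw [tr_c_of_notMem _ hy, Finset.sum_eq_zero]
    intro z _
    by_cases hz : x.coeff z = 0
    · rw [hz, mul_zero]
    · rw [tr_c_of_notMem, zero_mul]
      intro h
      exact hy (by simpa using H.mul_mem h (hx z hz))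

open Cfsg.Agent.H9.BrMod in
/-- the block acts trivially through the truncation -/
theorem ev_eq {p : ℕ} [hp : Fact p.Prime] [CharP k p] {Q : Subgroup G} (hQH : Q ≤ H) (hCH : Ce Q ≤ H)
    (hQp : IsPGroup p Q) (hLst : St H L) (hLs : ∀ x ∈ L, Supp H x)
    (hQL : ∀ d ∈ Q, ∀ x ∈ L, (sg d : MonoidAlgebra k G) • x = x) {B f : MonoidAlgebra k G}
    (hB : Fix Q B) (hBf : tr (Ce Q) B * f = f) (hf : ∀ x ∈ L, f • x = x) {x : MonoidAlgebra k G} (hx : x ∈ L) :
    tr H (B * x) = x := by
  classical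
  rw [tr_mul (hLs x hx)]
  have h1 : ∀ a : MonoidAlgebra k G, a * x = ∑ g : G, a.coeff g • (sg g * x) := by
    intro a
    exact smul_eq_sum (k := k) (G := G) a x
  let F : Cj Q → MonoidAlgebra k G := fun g => (tr H B).coeff (g.to) • (sg g.to * x)
  have hF : ∀ (d : Q) (g : Cj Q), F (d • g) = F g := by
    intro d g
    show (tr H B).coeff (Cj.to (d • g)) • (sg (Cj.to (d • g)) * x) = (tr H B).coeff (g.to) • (sg g.to * x)
    rw [Cj_to_smul]
    by_cases hg : g.to ∈ H
    · have hdg : (d : G) * g.to * (d : G)⁻¹ ∈ H := H.mul_mem (H.mul_mem (hQH d.2) hg) (H.inv_mem (hQH d.2))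
      rw [tr_c_of_mem _ hg, tr_c_of_mem _ hdg, hB.c d.2]
      congr 1
      rw [sg_mul, sg_mul]
      have e1 : (sg (d : G)⁻¹ : MonoidAlgebra k G) * x = x := hQL _ (Q.inv_mem d.2) x hx
      have e2 : (sg (d : G) : MonoidAlgebra k G) * (sg g.to * x) = sg g.to * x := hQL _ d.2 _ (hLst _ hg x hx)
      rw [mul_assoc, e1, mul_assoc, e2]
    · have hdg : (d : G) * g.to * (d : G)⁻¹ ∉ H := by
        intro h
        apply hg
        have := H.mul_mem (H.mul_mem (H.inv_mem (hQH d.2)) h) (hQH d.2)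
        have e : (d : G)⁻¹ * ((d : G) * g.to * (d : G)⁻¹) * (d : G) = g.to := by group
        rwa [e] at this
      rw [tr_c_of_notMem _ hg, tr_c_of_notMem _ hdg, zero_smul, zero_smul]
  obtain ⟨y, _, hy⟩ := Cfsg.Agent.H25.Orbit.sum_fixed hQp F hF
  have hpy : p • y = 0 := smul_p y
  rw [hpy, sub_eq_zero] at hy
  have h2 : tr H B * x = ∑ g : Cj Q, F g := h1 (tr H B)
  have h3 : tr (Ce Q) B * x = ∑ g ∈ Finset.univ.filter (fun g : Cj Q => ∀ d : Q, d • g = g), F g := by
    rw [h1 (tr (Ce Q) B), Finset.sum_filter]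
    refine Finset.sum_congr rfl fun g _ => ?_
    have e1 : (∀ d : Q, d • (Cj.mk g : Cj Q) = Cj.mk g) ↔ g ∈ Ce Q := by
      rw [Subgroup.mem_centralizer_iff]
      constructor
      · intro h d hd
        have := h ⟨d, hd⟩
        have h' : d * g * d⁻¹ = g := congrArg Cj.to this
        have h'' := congrArg (· * d) h'
        simpa using h''
      · intro h d
        have := h d d.2
        show (Cj.mk ((d : G) * g * (d : G)⁻¹) : Cj Q) = Cj.mk g
        rw [this, mul_inv_cancel_right]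
    by_cases hg : g ∈ Ce Q
    · have e3 : F (Cj.mk g) = B.coeff g • (sg g * x) := by
        show (tr H B).coeff g • (sg g * x) = _
        rw [tr_c_of_mem _ (hCH hg)]
      rw [tr_c_of_mem _ hg, ← e3]
      exact (if_pos (e1.2 hg)).symm
    · rw [tr_c_of_notMem _ hg, zero_smul]
      exact (if_neg (fun h => hg (e1.1 h))).symm
  rw [h2, hy, ← h3]
  have e : x = f * x := (hf x hx).symm
  rw [e, ← mul_assoc, hBf]

/-- a simple module of the block receiving a map that is not a trace -/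
theorem exists_simple {p : ℕ} [hp : Fact p.Prime] [CharP k p] {Q : Subgroup G} (hQH : Q ≤ H) (hCH : Ce Q ≤ H)
    (hQp : IsPGroup p Q) (hQ1 : p ∣ Nat.card Q) (hLst : St H L) (hL0 : L ≠ ⊥) (hLs : ∀ x ∈ L, Supp H x)
    (hQL : ∀ d ∈ Q, ∀ x ∈ L, (sg d : MonoidAlgebra k G) • x = x) {B f : MonoidAlgebra k G}
    (hB : ∀ a : MonoidAlgebra k G, a * B = B * a) (hBB : B * B = B)
    (hBf : tr (Ce Q) B * f = f) (hf : ∀ x ∈ L, f • x = x) :
    ∃ J : Submodule (MonoidAlgebra k G) (MonoidAlgebra k G),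
      IsSimpleModule (MonoidAlgebra k G) (MonoidAlgebra k G ⧸ J) ∧
      (∀ s : MonoidAlgebra k G ⧸ J, B • s = s) ∧ ∃ γ : MonoidAlgebra k G →ₗ[k] (MonoidAlgebra k G ⧸ J),
        HomOn H L γ ∧ ¬ PrOn H L γ := by
  classical
  by_contra hcon
  push Not at hcon
  have hBfix : Fix Q B := by
    intro g _
    rw [cnj_eq, hB, mul_assoc, sg_mul_inv, mul_one]
  have hev := fun (x : MonoidAlgebra k G) (hx : x ∈ L) =>
    ev_eq (p := p) hQH hCH hQp hLst hLs hQL hBfix hBf hf hx
  set X : Submodule (MonoidAlgebra k G) (MonoidAlgebra k G) :=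
    Submodule.span (MonoidAlgebra k G) {y | ∃ x ∈ L, y = B * x} with hX
  have hXB : ∀ y ∈ X, B * y = y := by
    intro y hy
    induction hy using Submodule.span_induction with
    | mem y hy =>
      obtain ⟨x, _, rfl⟩ := hy
      rw [← mul_assoc, hBB]
    | zero => rw [mul_zero]
    | add y y' _ _ h h' => rw [mul_add, h, h']
    | smul a y _ h => rw [smul_eq_mul, ← mul_assoc, ← hB, mul_assoc, h]
  have hXW : ∀ y ∈ X, ∀ g : G, tr H (sg g * y) ∈ L := by
    have h1 : ∀ y ∈ Submodule.span (MonoidAlgebra k G) (L : Set (MonoidAlgebra k G)), ∀ g : G,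
        tr H (sg g * y) ∈ L := by
      intro y hy
      induction hy using Submodule.span_induction with
      | mem y hy =>
        intro g
        by_cases hg : g ∈ H
        · rw [tr_of_supp ((supp_sg hg).mul (hLs y hy))]
          exact hLst g hg y hy
        · have : tr H (sg g * y) = 0 := by
            apply ext_c; intro z
            by_cases hz : z ∈ H
            · rw [tr_c_of_mem _ hz, sg_mul_c]
              by_contra h0
              have := hLs y hy _ h0
              apply hg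
              have h2 := H.mul_mem hz (H.inv_mem this)
              have e : z * (g⁻¹ * z)⁻¹ = g := by group
              rwa [e] at h2
            · rw [tr_c_of_notMem _ hz]; rfl
          rw [this]; exact L.zero_mem
      | zero => intro g; rw [mul_zero, map_zero]; exact L.zero_mem
      | add y y' _ _ h h' => intro g; rw [mul_add, map_add]; exact L.add_mem (h g) (h' g)
      | smul a y _ h =>
        intro g
        have e1 : sg g * (a • y) = ∑ x : G, (sg g * a).coeff x • (sg x * y) := by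
          rw [smul_eq_mul, ← mul_assoc]
          exact smul_eq_sum (k := k) (G := G) (sg g * a) y
        rw [e1, map_sum]
        refine L.sum_mem fun x _ => ?_
        rw [map_smul]
        exact L.smul_mem _ (h x)
    intro y hy
    refine h1 y ?_
    refine (Submodule.span_le.2 ?_ : X ≤ _) hy
    rintro _ ⟨x, hx, rfl⟩
    have := Submodule.smul_mem (Submodule.span (MonoidAlgebra k G) (L : Set (MonoidAlgebra k G))) B
      (Submodule.subset_span hx)
    exact this
  set ι : X →ₗ[k] MonoidAlgebra k G := (Submodule.subtype X).restrictScalars k with hι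
  obtain ⟨r, hr⟩ := LinearMap.exists_leftInverse_of_injective ι (LinearMap.ker_eq_bot.2 Subtype.val_injective)
  have hr' : ∀ (x : MonoidAlgebra k G) (hx : x ∈ X), r x = ⟨x, hx⟩ := fun x hx => LinearMap.congr_fun hr ⟨x, hx⟩
  have hBX : ∀ x ∈ L, B * x ∈ X := fun x hx => Submodule.subset_span ⟨x, hx, rfl⟩
  haveI : FiniteDimensional k X := FiniteDimensional.finiteDimensional_submodule (X.restrictScalars k)
  obtain ⟨β, hβ⟩ := induct hLst hcon (Module.finrank k X) X rfl (fun s => Subtype.ext (hXB s s.2))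
    (r ∘ₗ lm (MonoidAlgebra k G) B) (by
      intro h hh x hx
      rw [LinearMap.comp_apply, LinearMap.comp_apply, lm_apply, lm_apply, smul_eq_mul, smul_eq_mul, smul_eq_mul]
      have e1 : B * (sg h * x) = sg h * (B * x) := by rw [← mul_assoc, ← hB, mul_assoc]
      rw [e1, hr' (sg h * (B * x)) (X.smul_mem _ (hBX x hx)), hr' _ (hBX x hx)]
      rfl)
  apply hL0
  rw [Submodule.eq_bot_iff]
  intro x hx
  have h1 := congrArg (fun y => tr H (ι y)) (hβ x hx)
  beta_reduce at h1
  rw [LinearMap.comp_apply, lm_apply, smul_eq_mul, hr' _ (hBX x hx)] at h1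
  have h2 : tr H (ι ⟨B * x, hBX x hx⟩) = x := hev x hx
  rw [h2, map_sum, map_sum] at h1
  rw [h1]
  rw [← no_trace (p := p) hQH hQ1 hLst hQL (tr H ∘ₗ ι ∘ₗ β) (fun y => by
    have := hXW (β y) (β y).2 1
    rw [sg_one, one_mul] at this
    exact this) hx]
  refine Finset.sum_congr rfl fun h _ => ?_
  by_cases hh : h ∈ H
  · rw [if_pos hh, if_pos hh, cg_apply, cg_apply, LinearMap.comp_apply, LinearMap.comp_apply]
    have e1 : ∀ y : X, ι ((sg h : MonoidAlgebra k G) • y) = sg h * ι y := fun y => rfl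
    rw [e1]
    show tr H (sg h * ι (β (sg h⁻¹ * x))) = sg h * tr H (ι (β (sg h⁻¹ * x)))
    apply ext_c; intro z
    by_cases hz : z ∈ H
    · rw [tr_c_of_mem _ hz, sg_mul_c, sg_mul_c, tr_c_of_mem _ (H.mul_mem (H.inv_mem hh) hz)]
    · rw [tr_c_of_notMem _ hz, sg_mul_c, tr_c_of_notMem]
      intro h'
      exact hz (by simpa using H.mul_mem hh h')
  · rw [if_neg hh, if_neg hh, map_zero, map_zero]

end induct

section uniq

variable {S : Type*} [AddCommGroup S] [Module (MonoidAlgebra k G) S] [Module k S]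
  [IsScalarTower k (MonoidAlgebra k G) S]

variable {H : Subgroup G} {L : Submodule k (MonoidAlgebra k G)}

theorem HomOn.smul {γ : MonoidAlgebra k G →ₗ[k] S} (h : HomOn H L γ) {a : MonoidAlgebra k G}
    (ha : Supp H a) {x : MonoidAlgebra k G} (hx : x ∈ L) : γ (a • x) = a • γ x := by
  rw [smul_eq_sum a x, smul_eq_sum a (γ x), map_sum]
  refine Finset.sum_congr rfl fun g _ => ?_
  rw [map_smul]
  by_cases hg : a.coeff g = 0
  · rw [hg, zero_smul, zero_smul]
  · rw [h g (ha g hg) x hx]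

/-- the image of a simple subspace -/
theorem HomOn.image {γ : MonoidAlgebra k G →ₗ[k] S} (h : HomOn H L γ) (hL : Smp H L) (hn : ¬ PrOn H L γ) :
    Smp H (L.map γ) ∧ ∀ x ∈ L, γ x = 0 → x = 0 := by
  classical
  have h1 : ∀ x ∈ L, γ x = 0 → x = 0 := by
    have hst : St H (L ⊓ LinearMap.ker γ) := by
      intro g hg x hx
      refine ⟨hL.st g hg x hx.1, ?_⟩
      show γ _ = 0
      rw [h g hg x hx.1, LinearMap.mem_ker.1 hx.2, smul_zero]
    rcases hL.simple _ inf_le_left hst with h2 | h2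
    · intro x hx h0
      have : x ∈ L ⊓ LinearMap.ker γ := ⟨hx, h0⟩
      rw [h2, Submodule.mem_bot] at this
      exact this
    · exfalso
      apply hn
      refine ⟨0, fun x hx => ?_⟩
      have : x ∈ L ⊓ LinearMap.ker γ := by rw [h2]; exact hx
      rw [LinearMap.mem_ker.1 this.2, Finset.sum_eq_zero]
      intro g _
      split_ifs
      · rw [map_zero]; rfl
      · rfl
  refine ⟨⟨?_, ?_, ?_⟩, h1⟩
  · rintro g hg _ ⟨x, hx, rfl⟩
    exact ⟨_, hL.st g hg x hx, h g hg x hx⟩
  · intro h0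
    apply hL.ne
    rw [Submodule.eq_bot_iff]
    intro x hx
    apply h1 x hx
    have : γ x ∈ L.map γ := ⟨x, hx, rfl⟩
    rw [h0, Submodule.mem_bot] at this
    exact this
  · intro U hU hUst
    have hst : St H (L ⊓ U.comap γ) := by
      intro g hg x hx
      refine ⟨hL.st g hg x hx.1, ?_⟩
      show γ _ ∈ U
      rw [h g hg x hx.1]
      exact hUst g hg _ hx.2
    rcases hL.simple _ inf_le_left hst with h2 | h2
    · left
      rw [Submodule.eq_bot_iff]
      intro u hu
      obtain ⟨x, hx, rfl⟩ := hU hu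
      have : x ∈ L ⊓ U.comap γ := ⟨hx, hu⟩
      rw [h2, Submodule.mem_bot] at this
      rw [this, map_zero]
    · right
      refine le_antisymm hU ?_
      rintro _ ⟨x, hx, rfl⟩
      have : x ∈ L ⊓ U.comap γ := by rw [h2]; exact hx
      exact this.2

/-- the simple modules with a non-trace map into a given simple module are isomorphic -/
theorem unique [IsAlgClosed k] [FiniteDimensional k S] [IsSimpleModule (MonoidAlgebra k G) S]
    {D N : Subgroup G} (hDH : D ≤ H) (hHN : H ≤ N) {f a z : MonoidAlgebra k G}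
    (haD : Fix D a) (hff : f * f = f) (hfH : Fix H f) (hfs : Supp H f)
    [DecidablePred (· ∈ H)]
    (hfa : f = cos D (fun g => if g ∈ H then cnj g a else 0))
    (h1 : ∀ g ∈ N, g ∉ H → f * cnj g f = 0)
    (h2 : ∀ g, g ∉ N → ∀ d ∈ D, g⁻¹ * d * g ∈ D → d = 1)
    (hz : NZ H z) (hn : ∃ n : ℕ, ∀ v : S, f • v = v → z ^ n • v = 0)
    (hss : SS H z (LinearMap.range (lm (k := k) S f)))
    {L' : Submodule k (MonoidAlgebra k G)} (hL : Smp H L) (hL' : Smp H L')
    (hfL : ∀ x ∈ L, f • x = x) (hfL' : ∀ x ∈ L', f • x = x)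
    {γ γ' : MonoidAlgebra k G →ₗ[k] S} (hγ : HomOn H L γ) (hγ' : HomOn H L' γ')
    (hγn : ¬ PrOn H L γ) (hγn' : ¬ PrOn H L' γ') :
    ∃ ψ : MonoidAlgebra k G →ₗ[k] MonoidAlgebra k G, (∀ x ∈ L', ψ x ∈ L) ∧ HomOn H L' ψ ∧
      ∀ x ∈ L', ψ x = 0 → x = 0 := by
  classical
  obtain ⟨hT, hinj⟩ := hγ.image hL hγn
  obtain ⟨hT', hinj'⟩ := hγ'.image hL' hγn'
  have hTf : ∀ t ∈ L.map γ, f • t = t := by
    rintro _ ⟨x, hx, rfl⟩
    rw [← hγ.smul hfs hx, hfL x hx]
  have hTf' : ∀ t ∈ L'.map γ', f • t = t := by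
    rintro _ ⟨x, hx, rfl⟩
    rw [← hγ'.smul hfs hx, hfL' x hx]
  obtain ⟨δ, hδf, hδH, hδT, hδU⟩ := serial_end hz hff hfH hT hTf hn hss
  obtain ⟨Θ, hΘ, β, hβ⟩ := b1 hDH hHN haD hff hfH (by convert hfa) h1 h2 δ hδf hδH
  obtain ⟨c, hc⟩ := schur S (Θ : Module.End k S) (by
    intro g
    ext s
    have := LinearMap.congr_fun (hΘ g) ((sg g : MonoidAlgebra k G) • s)
    rw [cg_apply, ← mul_smul, sg_inv_mul, one_smul] at this
    exact this)
  have hδ : ∀ s, δ s = c • (f • s) + ∑ h : G, if h ∈ H then cg h β s else 0 := by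
    intro s
    rw [hβ s, hc]
    have e : f • c • f • s = c • f • s := by
      rw [smul_comm f c, ← mul_smul f f, hff]
    rw [e]
    congr 1
    refine Finset.sum_congr rfl fun h _ => ?_
    congr
  have hcg : ∀ {K : Submodule k (MonoidAlgebra k G)} {φ : MonoidAlgebra k G →ₗ[k] S}, HomOn H K φ → St H K →
      ∀ x ∈ K, (∑ h : G, if h ∈ H then cg h β (φ x) else 0) = ∑ h : G, if h ∈ H then cg h (β ∘ₗ φ) x else 0 := by
    intro K φ hφ hK x hx
    refine Finset.sum_congr rfl fun h _ => ?_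
    split_ifs with hh
    · rw [cg_apply, cg_apply, LinearMap.comp_apply, hφ h⁻¹ (H.inv_mem hh) x hx]
    · rfl
  have hc1 : c = 1 := by
    by_contra hc1
    apply hγn
    have h3 : PrOn H L ((1 - c) • γ) := by
      refine ⟨β ∘ₗ γ, fun x hx => ?_⟩
      have e1 := hδT (γ x) ⟨x, hx, rfl⟩
      rw [hδ, hTf _ ⟨x, hx, rfl⟩, hcg hγ hL.st x hx] at e1
      rw [LinearMap.smul_apply, sub_smul, one_smul, sub_eq_iff_eq_add, add_comm]
      refine e1.symm.trans ?_
      congr 1
      refine Finset.sum_congr rfl fun h _ => ?_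
      congr
    have h4 := h3.smul (1 - c)⁻¹
    rw [smul_smul, inv_mul_cancel₀ (sub_ne_zero.2 (Ne.symm hc1)), one_smul] at h4
    exact h4
  rcases hδU (L'.map γ') hT' hTf' with h3 | ⟨h3, h4⟩
  · exfalso
    apply hγn'
    have h5 : PrOn H L' ((-1 : k) • γ') := by
      refine ⟨β ∘ₗ γ', fun x hx => ?_⟩
      have e1 := h3 (γ' x) ⟨x, hx, rfl⟩
      rw [hδ, hTf' _ ⟨x, hx, rfl⟩, hcg hγ' hL'.st x hx, hc1, one_smul] at e1
      rw [LinearMap.smul_apply, neg_smul, one_smul]
      have e2 := neg_eq_of_add_eq_zero_right e1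
      rw [e2]
      refine Finset.sum_congr rfl fun h _ => ?_
      congr
    have h6 := h5.smul (-1 : k)
    rw [smul_smul, neg_one_mul, neg_neg, one_smul] at h6
    exact h6
  · obtain ⟨ρ, hρ⟩ := LinearMap.exists_leftInverse_of_injective (γ ∘ₗ L.subtype) (by
      rw [LinearMap.ker_eq_bot']
      rintro ⟨x, hx⟩ h0
      exact Subtype.ext (hinj x hx h0))
    have hρ' : ∀ (x : MonoidAlgebra k G) (hx : x ∈ L), ρ (γ x) = ⟨x, hx⟩ := fun x hx => LinearMap.congr_fun hρ ⟨x, hx⟩
    have h5 : ∀ x ∈ L', ∃ y ∈ L, δ (γ' x) = γ y := by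
      intro x hx
      have : δ (γ' x) ∈ (L'.map γ').map δ := ⟨_, ⟨x, hx, rfl⟩, rfl⟩
      rw [h3] at this
      obtain ⟨y, hy, e⟩ := this
      exact ⟨y, hy, e.symm⟩
    refine ⟨L.subtype ∘ₗ ρ ∘ₗ δ ∘ₗ γ', fun x _ => Subtype.property _, ?_, ?_⟩
    · intro h hh x hx
      obtain ⟨y, hy, e⟩ := h5 x hx
      rw [LinearMap.comp_apply, LinearMap.comp_apply, LinearMap.comp_apply, LinearMap.comp_apply,
        LinearMap.comp_apply, LinearMap.comp_apply, hγ' h hh x hx, hδH h hh, e, ← hγ h hh y hy,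
        hρ' _ (hL.st h hh y hy), hρ' y hy]
      rfl
    · intro x hx h0
      obtain ⟨y, hy, e⟩ := h5 x hx
      rw [LinearMap.comp_apply, LinearMap.comp_apply, LinearMap.comp_apply, e, hρ' y hy] at h0
      have hy0 : y = 0 := h0
      rw [hy0, map_zero] at e
      exact hinj' x hx (h4 _ ⟨x, hx, rfl⟩ e)

end uniq

end Cfsg.Agent.H25.Cyc
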