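import Mathlib
import Cfsg.Agent.H25_Cyc

/-!
H25_Cyd: semisimplicity for a central defect group of order `p` (relative Maschke).
-/

set_option autoImplicit false
set_option linter.unusedSectionVars false

namespace Cfsg.Agent.H25.Cyd

open Module Cfsg.Agent.H25.KG Cfsg.Agent.H25.Cya Cfsg.Agent.H25.Cyb Cfsg.Agent.H25.Cyc Cfsg.Agent.H9.BrMod4

variable {k : Type*} [Field k] {G : Type*} [Group G] [Fintype G]

variable {S : Type*} [AddCommGroup S] [Module (MonoidAlgebra k G) S] [Module k S]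
  [IsScalarTower k (MonoidAlgebra k G) S]

/-- relative Maschke theorem -/
theorem ss_one {D H : Subgroup G} (hDH : D ≤ H) {f a z : MonoidAlgebra k G}
    (has : Supp H a) (hff : f * f = f)
    [DecidablePred (· ∈ H)]
    (hfa : f = cos D (fun g => if g ∈ H then cnj g a else 0))
    (hzD : ∀ d ∈ D, ∃ w : MonoidAlgebra k G, Supp H w ∧ sg d - 1 = w * z) :
    SS H z (LinearMap.range (lm (k := k) S f)) := by
  classical
  intro X Y K hX hY hK hXY hYK hKV hzK
  obtain ⟨π, hπY, -, hπm⟩ := exists_prj (W := Y) (X := ⊥) (by simp)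
  -- D acts trivially on K / X
  have hDX : ∀ d ∈ D, ∀ v ∈ K, (sg d : MonoidAlgebra k G) • v - v ∈ X := by
    intro d hd v hv
    obtain ⟨w, hw, e⟩ := hzD d hd
    have h1 : (sg d : MonoidAlgebra k G) • v - v = w • z • v := by
      rw [← mul_smul, ← e, sub_smul, one_smul]
    rw [h1]
    exact hX.smul hw (hzK ⟨v, hv, rfl⟩)
  set η : S →ₗ[k] S := lm S a ∘ₗ π with hη
  have hηY : ∀ v, η v ∈ Y := fun v => hY.smul has (hπm v)
  set π' : S →ₗ[k] S := cos D (fun g => if g ∈ H then cg g η else 0) with hπ'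
  have hev : ∀ s, π' s = cos D (fun g => if g ∈ H then cg g η s else 0) := by
    intro s
    rw [hπ']
    unfold cos
    rw [LinearMap.sum_apply]
    refine Finset.sum_congr rfl fun q _ => ?_
    beta_reduce
    split_ifs <;> rfl
  have h1 : ∀ v, π' v ∈ Y := by
    intro v
    rw [hev]
    unfold cos
    refine Y.sum_mem fun q _ => ?_
    beta_reduce
    split_ifs with hq
    · exact hY _ hq _ (hηY _)
    · exact Y.zero_mem
  have h2 : ∀ v ∈ Y, π' v = v := by
    intro v hv
    rw [hev]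
    have e1 : f • v = v := by
      obtain ⟨t, ht⟩ := hKV (hYK hv)
      rw [lm_apply] at ht
      rw [← ht, ← mul_smul, hff]
    conv_rhs => rw [← e1, hfa]
    unfold cos
    rw [Finset.sum_smul]
    refine Finset.sum_congr rfl fun q _ => ?_
    beta_reduce
    by_cases hq : q.out ∈ H
    · rw [if_pos hq, if_pos hq, cg_apply, hη, LinearMap.comp_apply, lm_apply,
        hπY _ (hY _ (H.inv_mem hq) v hv), ← mul_smul, ← mul_smul, ← cnj_eq]
    · rw [if_neg hq, if_neg hq, zero_smul]
  -- equivariance modulo X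
  have h3 : ∀ v ∈ K, RInv D (fun g => X.mkQ (if g ∈ H then cg g η v else 0)) := by
    intro v hv d hd g
    show X.mkQ (if g * d ∈ H then cg (g * d) η v else 0) = X.mkQ (if g ∈ H then cg g η v else 0)
    have e1 : g * d ∈ H ↔ g ∈ H :=
      ⟨fun h => by simpa using H.mul_mem h (H.inv_mem (hDH hd)), fun h => H.mul_mem h (hDH hd)⟩
    by_cases hg : g ∈ H
    · rw [if_pos hg, if_pos (e1.2 hg), ← sub_eq_zero, ← map_sub, ← LinearMap.mem_ker, Submodule.ker_mkQ]
      rw [cg_mul, cg_apply g, cg_apply g, ← smul_sub]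
      refine hX _ hg _ ?_
      set w := (sg g⁻¹ : MonoidAlgebra k G) • v with hw
      have hwK : w ∈ K := hK _ (H.inv_mem hg) v hv
      rw [cg_apply]
      set x := (sg d⁻¹ : MonoidAlgebra k G) • w - w with hx
      have hxX : x ∈ X := hDX _ (D.inv_mem hd) w hwK
      have e2 : (sg d⁻¹ : MonoidAlgebra k G) • w = w + x := by rw [hx]; abel
      rw [e2, map_add, smul_add]
      have e3 : η x = a • x := by rw [hη, LinearMap.comp_apply, lm_apply, hπY x (hXY hxX)]
      have e4 : (sg d : MonoidAlgebra k G) • η w - η w ∈ X := hDX d hd _ (hYK (hηY w))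
      have e5 : (sg d : MonoidAlgebra k G) • η x ∈ X := by
        rw [e3]; exact hX _ (hDH hd) _ (hX.smul has hxX)
      have := X.add_mem e4 e5
      have e6 : (sg d : MonoidAlgebra k G) • η w - η w + (sg d : MonoidAlgebra k G) • η x =
          (sg d : MonoidAlgebra k G) • η w + (sg d : MonoidAlgebra k G) • η x - η w := by abel
      rw [e6] at this
      exact this
    · rw [if_neg hg, if_neg (fun h => hg (e1.1 h))]
  have h4 : ∀ h ∈ H, ∀ v ∈ K, π' ((sg h : MonoidAlgebra k G) • v) - (sg h : MonoidAlgebra k G) • π' v ∈ X := by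
    intro h hh v hv
    have e0 : ∀ g, (if g ∈ H then cg g η ((sg h : MonoidAlgebra k G) • v) else 0) =
        (sg h : MonoidAlgebra k G) • (if h⁻¹ * g ∈ H then cg (h⁻¹ * g) η v else 0) := by
      intro g
      have e1 : h⁻¹ * g ∈ H ↔ g ∈ H :=
        ⟨fun h' => by simpa using H.mul_mem hh h', fun h' => H.mul_mem (H.inv_mem hh) h'⟩
      by_cases hg : g ∈ H
      · rw [if_pos hg, if_pos (e1.2 hg), cg_apply, cg_apply, ← mul_smul (sg h), ← sg_mul, mul_inv_cancel_left,
          ← mul_smul, ← sg_mul, mul_inv_rev, inv_inv]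
      · rw [if_neg hg, if_neg (fun h => hg (e1.1 h)), smul_zero]
    have e2 : π' ((sg h : MonoidAlgebra k G) • v) = (sg h : MonoidAlgebra k G) •
        cos D (fun g => if h⁻¹ * g ∈ H then cg (h⁻¹ * g) η v else 0) := by
      rw [hev]
      unfold cos
      rw [Finset.smul_sum]
      exact Finset.sum_congr rfl fun q _ => e0 _
    rw [e2, hev, ← smul_sub]
    refine hX h hh _ ?_
    rw [← Submodule.ker_mkQ X, LinearMap.mem_ker, map_sub, sub_eq_zero]
    have e3 := map_cos (D := D) X.mkQ.toAddMonoidHom (fun g => if g ∈ H then cg g η v else 0)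
    have e4 := map_cos (D := D) X.mkQ.toAddMonoidHom (fun g => if h⁻¹ * g ∈ H then cg (h⁻¹ * g) η v else 0)
    simp only [LinearMap.toAddMonoidHom_coe] at e3 e4
    rw [e3, e4]
    exact (cos_left (h3 v hv) h⁻¹).symm
  refine ⟨K ⊓ X.comap π', ?_, ?_, inf_le_left, ?_, ?_⟩
  · intro h hh v hv
    refine ⟨hK h hh v hv.1, ?_⟩
    show π' _ ∈ X
    have e1 := X.add_mem (h4 h hh v hv.1) (hX h hh _ hv.2)
    rwa [sub_add_cancel] at e1
  · intro x hx
    refine ⟨hYK (hXY hx), ?_⟩
    show π' x ∈ X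
    rw [h2 x (hXY hx)]; exact hx
  · refine le_antisymm (sup_le hYK inf_le_left) ?_
    intro v hv
    have e1 : v = π' v + (v - π' v) := by abel
    rw [e1]
    refine Submodule.add_mem_sup (h1 v) ⟨K.sub_mem hv (hYK (h1 v)), ?_⟩
    show π' _ ∈ X
    rw [map_sub, h2 _ (h1 v), sub_self]
    exact X.zero_mem
  · ext v
    constructor
    · rintro ⟨hv, hv'⟩
      have : π' v ∈ X := hv'.2
      rwa [h2 v hv] at this
    · intro hv
      refine ⟨hXY hv, hYK (hXY hv), ?_⟩
      show π' v ∈ X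
      rw [h2 v (hXY hv)]; exact hv

end Cfsg.Agent.H25.Cyd
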