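import Mathlib
import Cfsg.Prelude.Def_BlockRank
import Cfsg.Agent.H25_BPTr
import Cfsg.Agent.H9_BrMod5
import Cfsg.Agent.H9_BrRed
import Cfsg.Agent.H10_BlockOrth

/-!
H25_Cye: the number of simple modules in a block is at most the p-regular rank of the block.
-/

set_option autoImplicit false
set_option linter.unusedSectionVars false

open scoped ComplexConjugate

namespace Cfsg.Agent.H25.Cye

open Module Cfsg Cfsg.Agent.H10.BlockLoc Cfsg.Agent.H10.BlockAlg Cfsg.Agent.H10.BlockIdem Cfsg.Agent.H10.BlockOrth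
  Cfsg.Agent.H10.RegPart Cfsg.Agent.H3.CharIrr Cfsg.Agent.H25.Red Cfsg.Agent.H25.BPTr Cfsg.Agent.H9.BrMod3
  Cfsg.Agent.H9.BrMod4 Cfsg.Agent.H9.BrMod5

theorem isAlgClosed_KM (M : Ideal AlgInt) [M.IsMaximal] : IsAlgClosed (KM M) :=
  Cfsg.Agent.H9.BrRed.isAlgClosed_residue M

/-- independent functions have an invertible minor -/
theorem exists_minor {k : Type*} [Field k] {ι R : Type*} [Fintype ι] [DecidableEq ι] (T : ι → R → k)
    (h : ∀ c : ι → k, (∀ x, ∑ i, c i * T i x = 0) → ∀ i, c i = 0) :
    ∃ x : ι → R, (Matrix.of fun i j => T i (x j)).det ≠ 0 := by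
  classical
  set v : R → (ι → k) := fun x i => T i x with hv
  obtain ⟨κ, a, ha, hsp, hli⟩ := exists_linearIndependent' k v
  have htop : Submodule.span k (Set.range v) = ⊤ := by
    by_contra hne
    obtain ⟨y, hy⟩ : ∃ y, y ∉ Submodule.span k (Set.range v) := by
      by_contra hc
      push Not at hc
      exact hne ((Submodule.eq_top_iff').2 hc)
    obtain ⟨φ, hφ, hφv⟩ := Submodule.exists_le_ker_of_notMem hy
    have h1 : ∀ w : ι → k, φ w = ∑ i, φ (Pi.single i 1) * w i := by
      intro w
      conv_lhs => rw [← Finset.univ_sum_single w, map_sum]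
      refine Finset.sum_congr rfl fun i _ => ?_
      have : (Pi.single i (w i) : ι → k) = w i • Pi.single i 1 := by
        rw [← Pi.single_smul, smul_eq_mul, mul_one]
      rw [this, map_smul, smul_eq_mul, mul_comm]
    have h2 := h (fun i => φ (Pi.single i 1)) (fun x => by
      have := hφv (Submodule.subset_span (Set.mem_range_self x) : v x ∈ Submodule.span k (Set.range v))
      rw [LinearMap.mem_ker, h1] at this
      exact this)
    apply hφ
    rw [h1]
    exact Finset.sum_eq_zero fun i _ => by rw [h2 i, zero_mul]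
  rw [htop] at hsp
  haveI : Finite κ := hli.finite
  haveI : Fintype κ := Fintype.ofFinite κ
  have hcard : Fintype.card κ = Fintype.card ι := by
    have := linearIndependent_iff_card_eq_finrank_span.1 hli
    rw [Set.finrank, hsp, finrank_top, Module.finrank_fintype_fun_eq_card] at this
    exact this
  obtain ⟨e⟩ := Fintype.card_eq.1 hcard
  refine ⟨fun j => a (e.symm j), ?_⟩
  have h3 : LinearIndependent k (fun j : ι => v (a (e.symm j))) := hli.comp _ e.symm.injective
  have h4 : IsUnit (Matrix.of fun (j i : ι) => v (a (e.symm j)) i) := by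
    rw [← Matrix.linearIndependent_rows_iff_isUnit]
    exact h3
  have h5 : (Matrix.of fun i j => T i (a (e.symm j))) = (Matrix.of fun (j i : ι) => v (a (e.symm j)) i).transpose := by
    ext i j; rfl
  rw [h5, Matrix.det_transpose]
  exact ((Matrix.isUnit_iff_isUnit_det _).1 h4).ne_zero

section main

variable {p : ℕ} {M : Ideal AlgInt} {Γ : Type*} [Group Γ] [Fintype Γ]

theorem blockLin_mem {b : Set (IrrCharacter Γ)} {t : Γ → ℂ} (ht : ∀ a g, t (a * g * a⁻¹) = t g) :
    ∃ c : IrrCharacter Γ → ℂ, ∀ x, ∑ y, blockCoeff b (y * x⁻¹) * t y =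
      ∑ᶠ χ ∈ b, c χ * (χ : Γ → ℂ) x := by
  classical
  haveI : Fintype (IrrCharacter Γ) := Fintype.ofFinite _
  refine ⟨fun χ => (Nat.card Γ : ℂ)⁻¹ * ∑ g, t g⁻¹ * (χ : Γ → ℂ) g, fun x => ?_⟩
  rw [finsum_mem_irr]
  have h1 : ∀ y, blockCoeff b (y * x⁻¹) * t y = ∑ χ : IrrCharacter Γ, (if χ ∈ b then
      (Nat.card Γ : ℂ)⁻¹ * ((χ : Γ → ℂ) 1 * (t y * (χ : Γ → ℂ) (y⁻¹ * x))) else 0) := by
    intro y
    rw [blockCoeff_eq_sum, mul_assoc, Finset.sum_mul, Finset.mul_sum]
    refine Finset.sum_congr rfl fun χ _ => ?_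
    split_ifs
    · have e : conj ((χ : Γ → ℂ) (y * x⁻¹)) = (χ : Γ → ℂ) (y⁻¹ * x) := by
        rw [← IsChar.inv_eq_conj (IsIrr.isCharacter χ.2)]
        have := IsIrr.isClass χ.2 (y⁻¹ * x) x
        rw [← this]
        congr 1; group
      rw [e]; ring
    · rw [zero_mul, mul_zero]
  rw [Finset.sum_congr rfl fun y _ => h1 y, Finset.sum_comm]
  refine Finset.sum_congr rfl fun χ _ => ?_
  split_ifs
  · rw [← Finset.mul_sum, ← Finset.mul_sum]
    have h2 := lin_irr_schur χ.2 (fun g => t g⁻¹) (by
      intro g h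
      show t (_)⁻¹ = t _
      rw [← ht h g⁻¹]
      congr 1; group) x
    have h3 : ∑ y, t y * (χ : Γ → ℂ) (y⁻¹ * x) = ∑ g, t g⁻¹ * (χ : Γ → ℂ) (g * x) := by
      rw [← Equiv.sum_comp (Equiv.inv Γ)]
      refine Finset.sum_congr rfl fun y _ => ?_
      simp
    rw [h3, h2]
    have := IsIrr.one_ne_zero χ.2
    field_simp
  · exact Finset.sum_const_zero

theorem rd_prod (hMax : M.IsMaximal) {ι : Type*} (s : Finset ι) (f : ι → ℂ) (h : ∀ i ∈ s, MemLocalRing M (f i)) :
    MemLocalRing M (∏ i ∈ s, f i) ∧ rd M (∏ i ∈ s, f i) = ∏ i ∈ s, rd M (f i) := by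
  classical
  induction s using Finset.induction_on with
  | empty => exact ⟨ring_one, rd_one⟩
  | insert a s ha ih =>
    have h1 := ih fun i hi => h i (Finset.mem_insert_of_mem hi)
    have h2 := h a (Finset.mem_insert_self _ _)
    rw [Finset.prod_insert ha, Finset.prod_insert ha]
    exact ⟨ring_mul h2 h1.1, by rw [rd_mul h2 h1.1, h1.2]⟩

/-- trace functions of a block are bounded by the p-regular rank -/
theorem card_le [hp : Fact p.Prime] (hM : IsPModular p M) [hMax : M.IsMaximal] {b : Set (IrrCharacter Γ)}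
    (hb : IsPBlock M b) {ι : Type*} [Fintype ι] [DecidableEq ι] (T : ι → Γ → KM M)
    (hind : ∀ c : ι → KM M, (∀ g, ∑ i, c i * T i g = 0) → ∀ i, c i = 0)
    (hcl : ∀ i a g, T i (a * g * a⁻¹) = T i g) (hpp : ∀ i g, T i g = T i (ppr p g))
    (hbl : ∀ i x, ∑ g, rd M (blockCoeff b g) * T i (g * x) = T i x) :
    Fintype.card ι ≤ blockRank p b := by
  classical
  set R := {x : Γ // ¬ p ∣ orderOf x}
  obtain ⟨x, hx⟩ := exists_minor (fun (i : ι) (x : R) => T i x) (by
    intro c hc
    apply hind
    intro g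
    have h1 : ¬ p ∣ orderOf (ppr p g) := (ppr_spec g).choose_spec.2.2.2
    have := hc ⟨ppr p g, h1⟩
    rw [← this]
    exact Finset.sum_congr rfl fun i _ => by rw [hpp i g])
  choose lift hl1 hl2 using rd_surj (M := M)
  set t : ι → Γ → ℂ := fun i g => lift (T i g) with ht
  have htc : ∀ i a g, t i (a * g * a⁻¹) = t i g := fun i a g => by rw [ht]; show lift _ = lift _; rw [hcl]
  set F : ι → Γ → ℂ := fun i x => ∑ y, blockCoeff b (y * x⁻¹) * t i y with hF
  have hbr : ∀ g, MemLocalRing M (blockCoeff b g) := fun g => blockCoeff_mem hb g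
  have hFr : ∀ i x, MemLocalRing M (F i x) ∧ rd M (F i x) = T i x := by
    intro i x
    have h1 : ∀ y ∈ Finset.univ, MemLocalRing M (blockCoeff b (y * x⁻¹) * t i y) :=
      fun y _ => ring_mul (hbr _) (hl1 _)
    refine ⟨ring_sum _ _ h1, ?_⟩
    rw [hF]
    show rd M (∑ y, blockCoeff b (y * x⁻¹) * t i y) = T i x
    rw [rd_sum _ _ h1, ← hbl i x, ← Equiv.sum_comp (Equiv.mulRight x)]
    refine Finset.sum_congr rfl fun g _ => ?_
    simp only [Equiv.coe_mulRight, mul_inv_cancel_right]
    rw [rd_mul (hbr _) (hl1 _), hl2]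
  choose c hc using fun i => blockLin_mem (b := b) (htc i)
  set V := Submodule.span ℂ ((fun χ : IrrCharacter Γ => pRegularPart p (χ : Γ → ℂ)) '' b) with hV
  have hFV : ∀ i, pRegularPart p (F i) ∈ V := by
    intro i
    haveI : Fintype (IrrCharacter Γ) := Fintype.ofFinite _
    have h1 : pRegularPart p (F i) = ∑ χ : IrrCharacter Γ, (if χ ∈ b then c i χ • pRegularPart p (χ : Γ → ℂ) else 0) := by
      ext x
      rw [Finset.sum_apply]
      unfold pRegularPart
      by_cases hx : IsPRegular p x
      · rw [if_pos hx]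
        show (∑ y, blockCoeff b (y * x⁻¹) * t i y) = _
        rw [hc i x, finsum_mem_irr]
        refine Finset.sum_congr rfl fun χ _ => ?_
        split_ifs
        · rw [Pi.smul_apply, if_pos hx, smul_eq_mul]
        · rfl
      · rw [if_neg hx, Finset.sum_eq_zero]
        intro χ _
        split_ifs
        · rw [Pi.smul_apply, if_neg hx, smul_zero]
        · rfl
    rw [h1]
    refine V.sum_mem fun χ _ => ?_
    split_ifs with hχ
    · exact V.smul_mem _ (Submodule.subset_span ⟨χ, hχ, rfl⟩)
    · exact V.zero_mem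
  have hli : LinearIndependent ℂ (fun i : ι => (⟨pRegularPart p (F i), hFV i⟩ : V)) := by
    rw [Fintype.linearIndependent_iff]
    intro d hd i
    have h1 : ∀ j, ∑ i, d i * F i (x j) = 0 := by
      intro j
      have h2 := congrArg (fun w : V => (w : Γ → ℂ) (x j : Γ)) hd
      simp only [Submodule.coe_sum, Submodule.coe_smul, Finset.sum_apply, Pi.smul_apply, smul_eq_mul,
        ZeroMemClass.coe_zero, Pi.zero_apply] at h2
      rw [← h2]
      refine Finset.sum_congr rfl fun i _ => ?_
      unfold pRegularPart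
      rw [if_pos]
      exact (x j).2
    -- the determinant is nonzero
    have h3 : (Matrix.of fun i j => F i (x j)).det ≠ 0 := by
      intro h0
      apply hx
      have h4 : rd M ((Matrix.of fun i j => F i (x j)).det) = (Matrix.of fun i j => T i (x j)).det := by
        rw [Matrix.det_apply, Matrix.det_apply]
        have h5 : ∀ σ ∈ (Finset.univ : Finset (Equiv.Perm ι)), MemLocalRing M
            (Equiv.Perm.sign σ • ∏ i, (Matrix.of fun i j => F i (x j)) (σ i) i) := by
          intro σ _
          have h6 := (rd_prod hMax Finset.univ (fun i => F (σ i) (x i)) fun i _ => (hFr _ _).1).1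
          rcases Int.units_eq_one_or (Equiv.Perm.sign σ) with h | h
          · rw [h, one_smul]; exact h6
          · rw [h, Units.neg_smul, one_smul]; exact ring_neg h6
        rw [rd_sum _ _ h5]
        refine Finset.sum_congr rfl fun σ _ => ?_
        have h6 := rd_prod hMax Finset.univ (fun i => F (σ i) (x i)) fun i _ => (hFr _ _).1
        have h7 : ∏ i, rd M (F (σ i) (x i)) = ∏ i, T (σ i) (x i) :=
          Finset.prod_congr rfl fun i _ => (hFr _ _).2
        rcases Int.units_eq_one_or (Equiv.Perm.sign σ) with h | h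
        · rw [h, one_smul, one_smul]
          exact h6.2.trans h7
        · rw [h, Units.neg_smul, one_smul, Units.neg_smul, one_smul]
          have h8 := rd_sub ring_zero h6.1
          rw [zero_sub, rd_zero, zero_sub] at h8
          exact h8.trans (congrArg Neg.neg (h6.2.trans h7))
      rw [← h4, h0, rd_zero]
    have h9 : Matrix.vecMul d (Matrix.of fun i j => F i (x j)) = 0 := by
      ext j
      exact h1 j
    have := Matrix.eq_zero_of_vecMul_eq_zero h3 h9
    rw [this]; rfl
  have := hli.fintype_card_le_finrank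
  exact this

section reps

variable [hp : Fact p.Prime] [hMax : M.IsMaximal]

theorem lift_eq_sum {k : Type*} [Field k] {S : Type*} [AddCommGroup S] [Module k S] (ρ : Γ →* Module.End k S)
    (a : MonoidAlgebra k Γ) : MonoidAlgebra.lift k (Module.End k S) Γ ρ a = ∑ g : Γ, a.coeff g • ρ g := by
  rw [MonoidAlgebra.lift_apply, Finsupp.sum_fintype]
  intro g
  rw [zero_smul]

/-- independence of the traces of simple representations -/
theorem rep_indep {k : Type*} [Field k] [IsAlgClosed k] {ι : Type*} [Fintype ι] [DecidableEq ι] (S : ι → Type*)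
    [∀ i, AddCommGroup (S i)]
    [∀ i, Module k (S i)] [∀ i, FiniteDimensional k (S i)] [∀ i, Nontrivial (S i)]
    (ρ : ∀ i, Γ →* Module.End k (S i))
    (hs : ∀ i, ∀ U : Submodule k (S i), (∀ g, ∀ u ∈ U, ρ i g u ∈ U) → U = ⊥ ∨ U = ⊤)
    (hne : ∀ i j, i ≠ j → ∀ φ : S i ≃ₗ[k] S j, ¬ ∀ g s, φ (ρ i g s) = ρ j g (φ s))
    (c : ι → k) (hc : ∀ g, ∑ i, c i * LinearMap.trace k (S i) (ρ i g) = 0) : ∀ i, c i = 0 := by
  classical
  let A := MonoidAlgebra k Γ
  letI inst1 : ∀ i, Module A (S i) := fun i =>
    Module.compHom (S i) ((MonoidAlgebra.lift k (Module.End k (S i)) Γ (ρ i)).toRingHom : A →+* Module.End k (S i))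
  have hsm : ∀ i (a : A) (s : S i), a • s = MonoidAlgebra.lift k (Module.End k (S i)) Γ (ρ i) a s := fun i a s => rfl
  have hsg : ∀ i (g : Γ) (s : S i), (MonoidAlgebra.single g (1 : k) : A) • s = ρ i g s := by
    intro i g s
    rw [hsm, MonoidAlgebra.lift_single, one_smul]
  haveI inst2 : ∀ i, IsScalarTower k A (S i) := by
    intro i
    refine ⟨fun c a s => ?_⟩
    rw [hsm, hsm, map_smul]
    rfl
  haveI inst3 : ∀ i, IsSimpleModule A (S i) := by
    intro i
    refine (isSimpleModule_iff _ _).2 ?_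
    haveI : Nontrivial (Submodule A (S i)) := (Submodule.nontrivial_iff A).2 inferInstance
    refine ⟨fun U => ?_⟩
    rcases hs i (U.restrictScalars k) (fun g u hu => by
      have := U.smul_mem (MonoidAlgebra.single g (1 : k) : A) hu
      rw [hsg] at this
      exact this) with h | h
    · left
      rw [Submodule.eq_bot_iff]
      intro u hu
      have : u ∈ U.restrictScalars k := hu
      rw [h] at this
      exact (Submodule.mem_bot _).1 this
    · right
      rw [Submodule.eq_top_iff']
      intro u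
      have : u ∈ U.restrictScalars k := by rw [h]; trivial
      exact this
  refine trace_indep (k := k) (A := A) S ?_ c ?_
  · intro i j hij
    refine ⟨fun e => ?_⟩
    have hcc : ∀ (i : ι) (c : k) (s : S i), c • s = (c • (1 : A)) • s := by
      intro i c s
      rw [smul_assoc, one_smul]
    let φ : S i ≃ₗ[k] S j :=
      { e.toAddEquiv with
        map_smul' := fun c s => by
          show e (c • s) = c • e s
          rw [hcc i c s, map_smul, ← hcc j c] }
    refine hne i j hij φ fun g s => ?_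
    show e (ρ i g s) = ρ j g (e s)
    rw [← hsg, ← hsg, map_smul]
  · intro a
    have h1 : ∀ i, LinearMap.trace k (S i) (Algebra.lsmul k k (S i) a) =
        ∑ g : Γ, a.coeff g * LinearMap.trace k (S i) (ρ i g) := by
      intro i
      have h2 : (Algebra.lsmul k k (S i) a : Module.End k (S i)) = ∑ g : Γ, a.coeff g • ρ i g := by
        rw [← lift_eq_sum]
        ext s
        exact hsm i a s
      rw [h2, map_sum]
      refine Finset.sum_congr rfl fun g _ => ?_
      rw [map_smul, smul_eq_mul]
    have h5 : ∑ i, c i * LinearMap.trace k (S i) (Algebra.lsmul k k (S i) a) =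
        ∑ i, ∑ g : Γ, c i * (a.coeff g * LinearMap.trace k (S i) (ρ i g)) := by
      refine Finset.sum_congr rfl fun i _ => ?_
      rw [h1 i, Finset.mul_sum]
    rw [h5, Finset.sum_comm]
    refine Finset.sum_eq_zero fun g _ => ?_
    have := hc g
    have h3 : ∑ i, c i * (a.coeff g * LinearMap.trace k (S i) (ρ i g)) =
        a.coeff g * ∑ i, c i * LinearMap.trace k (S i) (ρ i g) := by
      rw [Finset.mul_sum]
      exact Finset.sum_congr rfl fun i _ => by ring
    rw [h3, this, mul_zero]

/-- the number of simple representations of a block is at most its p-regular rank -/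
theorem card_simple_le (hM : IsPModular p M) {b : Set (IrrCharacter Γ)}
    (hb : IsPBlock M b) {ι : Type*} [Fintype ι] (S : ι → Type*) [∀ i, AddCommGroup (S i)]
    [∀ i, Module (KM M) (S i)] [∀ i, FiniteDimensional (KM M) (S i)] [∀ i, Nontrivial (S i)]
    (ρ : ∀ i, Γ →* Module.End (KM M) (S i))
    (hs : ∀ i, ∀ U : Submodule (KM M) (S i), (∀ g, ∀ u ∈ U, ρ i g u ∈ U) → U = ⊥ ∨ U = ⊤)
    (hne : ∀ i j, i ≠ j → ∀ φ : S i ≃ₗ[KM M] S j, ¬ ∀ g s, φ (ρ i g s) = ρ j g (φ s))
    (hbl : ∀ i (s : S i), ∑ g, rd M (blockCoeff b g) • ρ i g s = s) :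
    Fintype.card ι ≤ blockRank p b := by
  classical
  haveI : IsAlgClosed (KM M) := isAlgClosed_KM M
  haveI : CharP (KM M) p := charP_KM M hM
  refine card_le hM hb (fun i g => LinearMap.trace (KM M) (S i) (ρ i g)) ?_ ?_ ?_ ?_
  · intro c hc
    exact rep_indep S ρ hs hne c hc
  · intro i a g
    exact trace_conj' (ρ i) a g
  · intro i g
    exact trace_ppr (ρ i) g
  · intro i x
    have := central_trace (ρ i) (fun g => rd M (blockCoeff b g)) 1 (fun s => by
      rw [one_smul, LinearMap.sum_apply]
      exact hbl i s) x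
    rw [one_mul] at this
    exact this

end reps

end main

end Cfsg.Agent.H25.Cye
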