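import Mathlib
import Cfsg.Agent.H25_Cyd

/-!
H25_Cyf: simple modules for the stabiliser of a Brauer pair of order `p`: twisting by linear
characters, irreducibility of the restriction to the centralizer.
-/

set_option autoImplicit false
set_option linter.unusedSectionVars false

namespace Cfsg.Agent.H25.Cyf

open Module Cfsg.Agent.H25.KG Cfsg.Agent.H25.Cya Cfsg.Agent.H25.Cyb Cfsg.Agent.H25.Cyc Cfsg.Agent.H25.Cyd
  Cfsg.Agent.H9.BrMod4

variable {k : Type*} [Field k] {G : Type*} [Group G] [Fintype G]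

theorem eq_sum_sg (a : MonoidAlgebra k G) : a = ∑ g : G, a.coeff g • (sg g : MonoidAlgebra k G) := by
  have := smul_eq_sum a (1 : MonoidAlgebra k G)
  simpa using this

section normal

variable {H : Subgroup G}

theorem NZ.of_sg {z : MonoidAlgebra k G} (hs : Supp H z)
    (hl : ∀ h ∈ H, ∃ w : MonoidAlgebra k G, Supp H w ∧ sg h * z = z * w)
    (hr : ∀ h ∈ H, ∃ w : MonoidAlgebra k G, Supp H w ∧ z * sg h = w * z) : NZ H z := by
  classical
  have hl' : ∀ h : G, ∃ w : MonoidAlgebra k G, h ∈ H → Supp H w ∧ sg h * z = z * w := by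
    intro h
    by_cases hh : h ∈ H
    · obtain ⟨w, hw⟩ := hl h hh
      exact ⟨w, fun _ => hw⟩
    · exact ⟨0, fun h' => absurd h' hh⟩
  have hr' : ∀ h : G, ∃ w : MonoidAlgebra k G, h ∈ H → Supp H w ∧ z * sg h = w * z := by
    intro h
    by_cases hh : h ∈ H
    · obtain ⟨w, hw⟩ := hr h hh
      exact ⟨w, fun _ => hw⟩
    · exact ⟨0, fun h' => absurd h' hh⟩
  choose wl hwl using hl'
  choose wr hwr using hr'
  have hsum : ∀ (a : MonoidAlgebra k G) (w : G → MonoidAlgebra k G), Supp H a → (∀ h ∈ H, Supp H (w h)) →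
      Supp H (∑ g, a.coeff g • w g) := by
    intro a w ha hw x hx
    rw [MonoidAlgebra.coeff_sum, Finsupp.finsetSum_apply] at hx
    obtain ⟨g, _, hg⟩ := Finset.exists_ne_zero_of_sum_ne_zero hx
    rw [MonoidAlgebra.coeff_smul_apply] at hg
    have h1 : a.coeff g ≠ 0 := fun h => hg (by rw [h, zero_smul])
    have h2 : (w g).coeff x ≠ 0 := fun h => hg (by rw [h, smul_zero])
    exact hw g (ha g h1) x h2
  refine ⟨hs, fun a ha => ⟨∑ g, a.coeff g • wl g, hsum a wl ha fun h hh => (hwl h hh).1, ?_⟩,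
    fun a ha => ⟨∑ g, a.coeff g • wr g, hsum a wr ha fun h hh => (hwr h hh).1, ?_⟩⟩
  · conv_lhs => rw [eq_sum_sg a]
    rw [Finset.sum_mul, Finset.mul_sum]
    refine Finset.sum_congr rfl fun g _ => ?_
    by_cases hg : a.coeff g = 0
    · rw [hg, zero_smul, zero_smul, zero_mul, mul_zero]
    · rw [smul_mul_assoc, mul_smul_comm, (hwl g (ha g hg)).2]
  · conv_lhs => rw [eq_sum_sg a]
    rw [Finset.sum_mul, Finset.mul_sum]
    refine Finset.sum_congr rfl fun g _ => ?_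
    by_cases hg : a.coeff g = 0
    · rw [hg, zero_smul, zero_smul, zero_mul, mul_zero]
    · rw [smul_mul_assoc, mul_smul_comm, (hwr g (ha g hg)).2]

theorem sg_pow (u : G) (n : ℕ) : (sg (u ^ n) : MonoidAlgebra k G) = sg u ^ n := by
  induction n with
  | zero => rw [pow_zero, pow_zero]; rfl
  | succ n ih => rw [pow_succ, pow_succ, sg_mul, ih]

theorem supp_pow {a : MonoidAlgebra k G} (ha : Supp H a) (n : ℕ) : Supp H (a ^ n) := by
  induction n with
  | zero => rw [pow_zero]; exact Supp.one H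
  | succ n ih => rw [pow_succ]; exact ih.mul ha

theorem supp_sum {ι : Type*} (s : Finset ι) (w : ι → MonoidAlgebra k G) (hw : ∀ i ∈ s, Supp H (w i)) :
    Supp H (∑ i ∈ s, w i) := by
  intro x hx
  rw [MonoidAlgebra.coeff_sum, Finsupp.finsetSum_apply] at hx
  obtain ⟨g, hg, hgx⟩ := Finset.exists_ne_zero_of_sum_ne_zero hx
  exact hw g hg x hgx

/-- the element `u - 1` is normal -/
theorem nz_sub_one {u : G} (hu : u ∈ H) (hn : ∀ h ∈ H, ∃ n : ℕ, h * u * h⁻¹ = u ^ n) :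
    NZ H (sg u - 1 : MonoidAlgebra k G) := by
  refine NZ.of_sg ((supp_sg hu).sub (Supp.one H)) ?_ ?_
  · intro h hh
    obtain ⟨n, hn'⟩ := hn h hh
    refine ⟨(∑ i ∈ Finset.range n, sg u ^ i) * sg h, (supp_sum _ _ fun i _ => supp_pow (supp_sg hu) i).mul (supp_sg hh), ?_⟩
    rw [← mul_assoc, mul_geom_sum, ← sg_pow, ← hn', sub_mul, mul_sub, mul_one, one_mul, ← sg_mul, ← sg_mul]
    congr 2
    group
  · intro h hh
    obtain ⟨n, hn'⟩ := hn h⁻¹ (H.inv_mem hh)
    refine ⟨sg h * (∑ i ∈ Finset.range n, sg u ^ i), (supp_sg hh).mul (supp_sum _ _ fun i _ => supp_pow (supp_sg hu) i), ?_⟩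
    rw [mul_assoc, geom_sum_mul, ← sg_pow, ← hn', sub_mul, mul_sub, mul_one, one_mul, ← sg_mul, ← sg_mul]
    congr 2
    group

theorem nilp_sub_one {p : ℕ} [hp : Fact p.Prime] [CharP k p] {u : G} (hu : u ^ p = 1) :
    (sg u - 1 : MonoidAlgebra k G) ^ p = 0 := by
  have h1 : ((Polynomial.X - 1 : Polynomial k)) ^ p = Polynomial.X ^ p - 1 := by
    have := sub_pow_char (R := Polynomial k) Polynomial.X 1 (p := p)
    rwa [one_pow] at this
  have h2 := congrArg (Polynomial.aeval (sg u : MonoidAlgebra k G)) h1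
  rw [map_pow, map_sub, map_sub, map_pow, Polynomial.aeval_X, map_one, ← sg_pow, hu, sg_one, sub_self] at h2
  exact h2

theorem sub_one_dvd {u : G} (hu : u ∈ H) {d : G} (hd : ∃ n : ℕ, u ^ n = d) :
    ∃ w : MonoidAlgebra k G, Supp H w ∧ sg d - 1 = w * (sg u - 1) := by
  obtain ⟨n, rfl⟩ := hd
  exact ⟨∑ i ∈ Finset.range n, sg u ^ i, supp_sum _ _ fun i _ => supp_pow (supp_sg hu) i, by
    rw [geom_sum_mul, sg_pow]⟩

/-- a simple subspace is centralized by the normal `p`-subgroup -/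
theorem triv_on {S : Type*} [AddCommGroup S] [Module (MonoidAlgebra k G) S] [Module k S]
    [IsScalarTower k (MonoidAlgebra k G) S] {p : ℕ} [hp : Fact p.Prime] [CharP k p] {u : G} (hu : u ∈ H)
    (hup : u ^ p = 1) (hn : ∀ h ∈ H, ∃ n : ℕ, h * u * h⁻¹ = u ^ n) {L : Submodule k S} (hL : Smp H L)
    {d : G} (hd : d ∈ Subgroup.zpowers u) {x : S} (hx : x ∈ L) : (sg d : MonoidAlgebra k G) • x = x := by
  have h1 := hL.kill (nz_sub_one hu hn) ⟨p, fun v _ => by rw [nilp_sub_one hup, zero_smul]⟩ x hx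
  rw [sub_smul, one_smul, sub_eq_zero] at h1
  obtain ⟨n, rfl⟩ : ∃ n : ℕ, u ^ n = d := by
    rw [← mem_powers_iff_mem_zpowers] at hd
    exact Submonoid.mem_powers_iff _ _ |>.1 hd
  induction n with
  | zero => rw [pow_zero, sg_one, one_smul]
  | succ n ih => rw [pow_succ, sg_mul, mul_smul, h1, ih (Subgroup.npow_mem_zpowers u n)]

end normal

section exist

/-- minimal stable subspaces -/
theorem exists_smp {S : Type*} [AddCommGroup S] [Module (MonoidAlgebra k G) S] [Module k S]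
    [IsScalarTower k (MonoidAlgebra k G) S] [FiniteDimensional k S] {H : Subgroup G} {V : Submodule k S}
    (hV : St H V) (hV0 : V ≠ ⊥) : ∃ L ≤ V, Smp H L := by
  obtain ⟨L, ⟨hL, hLV, hL0⟩, hmin⟩ := WellFounded.has_min
    (wellFounded_lt : WellFounded fun a b : Submodule k S => a < b)
    {L | St H L ∧ L ≤ V ∧ L ≠ ⊥} ⟨V, hV, le_rfl, hV0⟩
  refine ⟨L, hLV, hL, hL0, fun U hU hUst => ?_⟩
  by_cases h0 : U = ⊥
  · exact Or.inl h0
  · right
    by_contra hne
    exact hmin U ⟨hUst, hU.trans hLV, h0⟩ (lt_of_le_of_ne hU hne)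

/-- the space `f kH` -/
def fk (H : Subgroup G) (f : MonoidAlgebra k G) : Submodule k (MonoidAlgebra k G) where
  carrier := {x | Supp H x ∧ f * x = x}
  add_mem' ha hb := ⟨ha.1.add hb.1, by rw [mul_add, ha.2, hb.2]⟩
  zero_mem' := ⟨Supp.zero H, mul_zero _⟩
  smul_mem' c a ha := ⟨Supp.smul c ha.1, by rw [mul_smul_comm, ha.2]⟩

theorem exists_L {H : Subgroup G} {f : MonoidAlgebra k G} (hf : Supp H f) (hfH : Fix H f) (hff : f * f = f)
    (hf0 : f ≠ 0) : ∃ L : Submodule k (MonoidAlgebra k G), Smp H L ∧ (∀ x ∈ L, Supp H x) ∧ ∀ x ∈ L, f • x = x := by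
  obtain ⟨L, hL, hs⟩ := exists_smp (H := H) (V := fk H f) (by
    intro h hh x hx
    refine ⟨(supp_sg hh).mul hx.1, ?_⟩
    have : f * (sg h * x) = sg h * (f * x) := by
      rw [← mul_assoc, ← mul_assoc, sg_mul_eq, hfH h hh]
    show f * (sg h * x) = sg h * x
    rw [this, hx.2]) (by
    intro h
    have : f ∈ fk H f := ⟨hf, hff⟩
    rw [h, Submodule.mem_bot] at this
    exact hf0 this)
  exact ⟨L, hs, fun x hx => (hL hx).1, fun x hx => (hL hx).2⟩

end exist

section image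

variable {S : Type*} [AddCommGroup S] [Module (MonoidAlgebra k G) S] [Module k S]
  [IsScalarTower k (MonoidAlgebra k G) S] {H : Subgroup G}

/-- images of simple subspaces -/
theorem smp_map {L : Submodule k (MonoidAlgebra k G)} {γ : MonoidAlgebra k G →ₗ[k] S} (h : HomOn H L γ)
    (hL : Smp H L) (hn : ∃ x ∈ L, γ x ≠ 0) :
    Smp H (L.map γ) ∧ ∀ x ∈ L, γ x = 0 → x = 0 := by
  have h1 : ∀ x ∈ L, γ x = 0 → x = 0 := by
    have hst : St H (L ⊓ LinearMap.ker γ) := by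
      intro g hg x hx
      refine ⟨hL.st g hg x hx.1, ?_⟩
      show γ _ = 0
      rw [h g hg x hx.1, LinearMap.mem_ker.1 hx.2, smul_zero]
    rcases hL.simple _ inf_le_left hst with h2 | h2
    · intro x hx h0
      have : x ∈ L ⊓ LinearMap.ker γ := ⟨hx, h0⟩
      rw [h2, Submodule.mem_bot] at this
      exact this
    · exfalso
      obtain ⟨x, hx, hx0⟩ := hn
      apply hx0
      have : x ∈ L ⊓ LinearMap.ker γ := by rw [h2]; exact hx
      exact this.2
  refine ⟨⟨?_, ?_, ?_⟩, h1⟩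
  · rintro g hg _ ⟨x, hx, rfl⟩
    exact ⟨_, hL.st g hg x hx, h g hg x hx⟩
  · intro h0
    apply hL.ne
    rw [Submodule.eq_bot_iff]
    intro x hx
    apply h1 x hx
    have : γ x ∈ L.map γ := ⟨x, hx, rfl⟩
    rw [h0, Submodule.mem_bot] at this
    exact this
  · intro U hU hUst
    have hst : St H (L ⊓ U.comap γ) := by
      intro g hg x hx
      refine ⟨hL.st g hg x hx.1, ?_⟩
      show γ _ ∈ U
      rw [h g hg x hx.1]
      exact hUst g hg _ hx.2
    rcases hL.simple _ inf_le_left hst with h2 | h2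
    · left
      rw [Submodule.eq_bot_iff]
      intro u hu
      obtain ⟨x, hx, rfl⟩ := hU hu
      have : x ∈ L ⊓ U.comap γ := ⟨hx, hu⟩
      rw [h2, Submodule.mem_bot] at this
      rw [this, map_zero]
    · right
      refine le_antisymm hU ?_
      rintro _ ⟨x, hx, rfl⟩
      have : x ∈ L ⊓ U.comap γ := by rw [h2]; exact hx
      exact this.2

end image

section twist

variable {H C : Subgroup G}

/-- weights: linear characters of `H` trivial on `C` -/
structure Wt (H C : Subgroup G) (w : G → k) : Prop where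
  mul : ∀ h ∈ H, ∀ h' ∈ H, w (h * h') = w h * w h'
  ne : ∀ h ∈ H, w h ≠ 0
  one : ∀ c ∈ C, w c = 1

/-- twisting -/
noncomputable def tw (w : G → k) : MonoidAlgebra k G →ₗ[k] MonoidAlgebra k G where
  toFun x := ofF fun g => w g * x.coeff g
  map_add' x y := by
    apply ext_c; intro g
    simp only [coeff_ofF, MonoidAlgebra.coeff_add, Finsupp.add_apply]
    ring
  map_smul' c x := by
    apply ext_c; intro g
    simp only [coeff_ofF, MonoidAlgebra.coeff_smul, Finsupp.smul_apply, RingHom.id_apply, smul_eq_mul]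
    ring

theorem tw_c (w : G → k) (x : MonoidAlgebra k G) (g : G) : (tw w x).coeff g = w g * x.coeff g := rfl

theorem tw_supp (w : G → k) {x : MonoidAlgebra k G} (hx : Supp H x) : Supp H (tw w x) := by
  intro g hg
  rw [tw_c] at hg
  exact hx g fun h => hg (by rw [h, mul_zero])

theorem tw_sg {w : G → k} (hw : Wt H C w) {h : G} (hh : h ∈ H) {x : MonoidAlgebra k G} (hx : Supp H x) :
    tw w (sg h * x) = w h • (sg h * tw w x) := by
  apply ext_c; intro g
  rw [tw_c, MonoidAlgebra.coeff_smul_apply, sg_mul_c, sg_mul_c, tw_c, smul_eq_mul]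
  by_cases hg : x.coeff (h⁻¹ * g) = 0
  · rw [hg]; ring
  · have h1 := hw.mul h hh (h⁻¹ * g) (hx _ hg)
    rw [mul_inv_cancel_left] at h1
    rw [h1]; ring

theorem tw_mul_f {w : G → k} (hw : Wt H C w) (hCH : C ≤ H) {f x : MonoidAlgebra k G} (hf : Supp C f) (hx : Supp H x) :
    f * tw w x = tw w (f * x) := by
  apply ext_c; intro g
  rw [tw_c, mul_c, mul_c, Finset.mul_sum]
  refine Finset.sum_congr rfl fun c _ => ?_
  rw [tw_c]
  by_cases hc : f.coeff c = 0
  · rw [hc]; ring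
  by_cases hg : x.coeff (c⁻¹ * g) = 0
  · rw [hg]; ring
  · have hcC := hf c hc
    have h1 := hw.mul c (hCH hcC) (c⁻¹ * g) (hx _ hg)
    rw [mul_inv_cancel_left, hw.one c hcC, one_mul] at h1
    rw [h1]; ring

theorem tw_inv {w : G → k} (hw : Wt H C w) {x : MonoidAlgebra k G} (hx : Supp H x) :
    tw (fun g => (w g)⁻¹) (tw w x) = x := by
  apply ext_c; intro g
  rw [tw_c, tw_c]
  by_cases hg : x.coeff g = 0
  · rw [hg]; ring
  · rw [← mul_assoc, inv_mul_cancel₀ (hw.ne g (hx g hg)), one_mul]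

theorem Wt.inv {w : G → k} (hw : Wt H C w) : Wt H C (fun g => (w g)⁻¹) where
  mul h hh h' hh' := by rw [hw.mul h hh h' hh', mul_inv]
  ne h hh := inv_ne_zero (hw.ne h hh)
  one c hc := by rw [hw.one c hc, inv_one]

theorem tw_inv' {w : G → k} (hw : Wt H C w) {x : MonoidAlgebra k G} (hx : Supp H x) :
    tw w (tw (fun g => (w g)⁻¹) x) = x := by
  have := tw_inv hw.inv hx
  simpa using this

/-- the twisted subspace -/
theorem smp_tw {w : G → k} (hw : Wt H C w) (hCH : C ≤ H) {f : MonoidAlgebra k G} (hf : Supp C f)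
    {L : Submodule k (MonoidAlgebra k G)} (hL : Smp H L) (hLs : ∀ x ∈ L, Supp H x) (hLf : ∀ x ∈ L, f • x = x) :
    Smp H (L.map (tw w)) ∧ (∀ x ∈ L.map (tw w), Supp H x) ∧ ∀ x ∈ L.map (tw w), f • x = x := by
  have hst : ∀ {w : G → k}, Wt H C w → ∀ {U : Submodule k (MonoidAlgebra k G)}, St H U → (∀ x ∈ U, Supp H x) →
      St H (U.map (tw w)) := by
    rintro w hw U hU hUs h hh _ ⟨x, hx, rfl⟩
    have h1 := tw_sg hw hh (hUs x hx)
    have h2 : (sg h : MonoidAlgebra k G) • tw w x = (w h)⁻¹ • tw w (sg h * x) := by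
      rw [h1, smul_smul, inv_mul_cancel₀ (hw.ne h hh), one_smul]; rfl
    rw [h2]
    exact Submodule.smul_mem _ _ ⟨_, hU h hh x hx, rfl⟩
  refine ⟨⟨hst hw hL.st hLs, ?_, ?_⟩, ?_, ?_⟩
  · intro h0
    apply hL.ne
    rw [Submodule.eq_bot_iff]
    intro x hx
    have : tw w x ∈ L.map (tw w) := ⟨x, hx, rfl⟩
    rw [h0, Submodule.mem_bot] at this
    rw [← tw_inv hw (hLs x hx), this, map_zero]
  · intro U hU hUst
    have hUs : ∀ x ∈ U, Supp H x := by
      intro x hx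
      obtain ⟨y, hy, rfl⟩ := hU hx
      exact tw_supp w (hLs y hy)
    have hU' : U.map (tw fun g => (w g)⁻¹) ≤ L := by
      rintro _ ⟨x, hx, rfl⟩
      obtain ⟨y, hy, rfl⟩ := hU hx
      rw [tw_inv hw (hLs y hy)]
      exact hy
    rcases hL.simple _ hU' (hst hw.inv hUst hUs) with h1 | h1
    · left
      rw [Submodule.eq_bot_iff]
      intro x hx
      have : tw (fun g => (w g)⁻¹) x ∈ U.map (tw fun g => (w g)⁻¹) := ⟨x, hx, rfl⟩
      rw [h1, Submodule.mem_bot] at this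
      rw [← tw_inv' hw (hUs x hx), this, map_zero]
    · right
      refine le_antisymm hU ?_
      rintro _ ⟨x, hx, rfl⟩
      rw [← h1] at hx
      obtain ⟨y, hy, rfl⟩ := hx
      rw [tw_inv' hw (hUs y hy)]
      exact hy
  · rintro _ ⟨x, hx, rfl⟩
    exact tw_supp w (hLs x hx)
  · rintro _ ⟨x, hx, rfl⟩
    show f * tw w x = tw w x
    rw [tw_mul_f hw hCH hf (hLs x hx)]
    congr 1
    exact hLf x hx

end twist

section irr

variable [IsAlgClosed k] {H C : Subgroup G}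

/-- simple modules of `H` in the stable block stay simple on `C` -/
theorem irr (hCH : C ≤ H) (hCn : ∀ h ∈ H, ∀ c ∈ C, h * c * h⁻¹ ∈ C) {h₀ : G} (hh₀ : h₀ ∈ H)
    (hgen : ∀ h ∈ H, ∃ n : ℕ, ∃ c ∈ C, h = h₀ ^ n * c) {f : MonoidAlgebra k G} 
    (hU : ∀ Y Y' : Submodule k (MonoidAlgebra k G), Smp C Y → Smp C Y' → (∀ y ∈ Y, f • y = y) →
      (∀ y ∈ Y', f • y = y) → ∃ ψ : MonoidAlgebra k G →ₗ[k] MonoidAlgebra k G, (∀ y ∈ Y, ψ y ∈ Y') ∧ HomOn C Y ψ ∧
        ∀ y ∈ Y, ψ y = 0 → y = 0)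
    {L : Submodule k (MonoidAlgebra k G)} (hL : Smp H L) (hLf : ∀ x ∈ L, f • x = x) : Smp C L := by
  classical
  obtain ⟨Y, hYL, hY⟩ := exists_smp (H := C) (V := L) (fun c hc => hL.st c (hCH hc)) hL.ne
  -- the conjugate module
  have hinj0 : ∀ x : MonoidAlgebra k G, lm (k := k) (MonoidAlgebra k G) (sg h₀) x = 0 → x = 0 := by
    intro x hx
    rw [lm_apply] at hx
    have := congrArg (fun y => (sg h₀⁻¹ : MonoidAlgebra k G) • y) hx
    simp only [smul_zero] at this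
    rwa [← mul_smul, sg_inv_mul, one_smul] at this
  have hcomm : ∀ c ∈ C, ∀ x : MonoidAlgebra k G, (sg c : MonoidAlgebra k G) • (sg h₀ : MonoidAlgebra k G) • x =
      (sg h₀ : MonoidAlgebra k G) • (sg (h₀⁻¹ * c * h₀) : MonoidAlgebra k G) • x := by
    intro c _ x
    rw [← mul_smul, ← mul_smul, ← sg_mul, ← sg_mul]
    congr 2
    group
  have hc' : ∀ c ∈ C, h₀⁻¹ * c * h₀ ∈ C := by
    intro c hc
    have := hCn _ (H.inv_mem hh₀) c hc
    rwa [inv_inv] at this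
  set Y₁ := Y.map (lm (MonoidAlgebra k G) (sg h₀)) with hY₁
  have hY₁L : Y₁ ≤ L := by
    rintro _ ⟨y, hy, rfl⟩
    exact hL.st h₀ hh₀ y (hYL hy)
  have hY₁s : Smp C Y₁ := by
    refine ⟨?_, ?_, ?_⟩
    · rintro c hc _ ⟨y, hy, rfl⟩
      rw [lm_apply, hcomm c hc]
      exact ⟨_, hY.st _ (hc' c hc) y hy, rfl⟩
    · intro h0
      apply hY.ne
      rw [Submodule.eq_bot_iff]
      intro y hy
      have : lm (MonoidAlgebra k G) (sg h₀) y ∈ Y₁ := ⟨y, hy, rfl⟩
      rw [h0, Submodule.mem_bot] at this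
      exact hinj0 y this
    · intro U hU' hUst
      have hst : St C (Y ⊓ U.comap (lm (MonoidAlgebra k G) (sg h₀))) := by
        intro c hc y hy
        refine ⟨hY.st c hc y hy.1, ?_⟩
        show (sg h₀ : MonoidAlgebra k G) • (sg c : MonoidAlgebra k G) • y ∈ U
        have h1 : (sg h₀ : MonoidAlgebra k G) • (sg c : MonoidAlgebra k G) • y =
            (sg (h₀ * c * h₀⁻¹) : MonoidAlgebra k G) • (sg h₀ : MonoidAlgebra k G) • y := by
          rw [← mul_smul, ← mul_smul, ← sg_mul, ← sg_mul]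
          congr 2
          group
        rw [h1]
        exact hUst _ (hCn h₀ hh₀ c hc) _ hy.2
      rcases hY.simple _ inf_le_left hst with h2 | h2
      · left
        rw [Submodule.eq_bot_iff]
        intro u hu
        obtain ⟨y, hy, rfl⟩ := hU' hu
        have : y ∈ Y ⊓ U.comap (lm (MonoidAlgebra k G) (sg h₀)) := ⟨hy, hu⟩
        rw [h2, Submodule.mem_bot] at this
        rw [this, map_zero]
      · right
        refine le_antisymm hU' ?_
        rintro _ ⟨y, hy, rfl⟩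
        have : y ∈ Y ⊓ U.comap (lm (MonoidAlgebra k G) (sg h₀)) := by rw [h2]; exact hy
        exact this.2
  obtain ⟨θ', hθm, hθh, hθi⟩ := hU Y Y₁ hY hY₁s (fun y hy => hLf y (hYL hy)) (fun y hy => hLf y (hY₁L hy))
  set θ := lm (MonoidAlgebra k G) (sg h₀⁻¹) ∘ₗ θ' with hθ
  have hθY : ∀ y ∈ Y, θ y ∈ Y := by
    intro y hy
    obtain ⟨y', hy', e⟩ := hθm y hy
    rw [hθ, LinearMap.comp_apply, ← e, lm_apply, lm_apply, ← mul_smul, sg_inv_mul, one_smul]
    exact hy'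
  have hθ'e : ∀ y, θ' y = (sg h₀ : MonoidAlgebra k G) • θ y := by
    intro y
    rw [hθ, LinearMap.comp_apply, lm_apply, ← mul_smul, sg_mul_inv, one_smul]
  have hθc : ∀ c ∈ C, ∀ y ∈ Y, θ ((sg c : MonoidAlgebra k G) • y) = (sg (h₀⁻¹ * c * h₀) : MonoidAlgebra k G) • θ y := by
    intro c hc y hy
    rw [hθ, LinearMap.comp_apply, hθh c hc y hy, hθ'e, LinearMap.comp_apply, lm_apply, lm_apply, hθ'e, hcomm c hc,
      ← mul_smul, sg_inv_mul, one_smul, ← mul_smul (sg h₀⁻¹), sg_inv_mul, one_smul]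
  have hθi' : ∀ y ∈ Y, θ y = 0 → y = 0 := by
    intro y hy h0
    exact hθi y hy (by rw [hθ'e, h0, smul_zero])
  have hθs : ∀ y ∈ Y, ∃ y' ∈ Y, θ y' = y := by
    have h1 : Y.map θ = Y := by
      refine Submodule.eq_of_le_of_finrank_eq ?_ ?_
      · rintro _ ⟨y, hy, rfl⟩; exact hθY y hy
      · rw [← LinearMap.range_domRestrict]
        exact LinearMap.finrank_range_of_inj (by
          rw [← LinearMap.ker_eq_bot, LinearMap.ker_eq_bot']
          rintro ⟨y, hy⟩ h0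
          exact Subtype.ext (hθi' y hy h0))
    intro y hy
    rw [← h1] at hy
    obtain ⟨y', hy', e⟩ := hy
    exact ⟨y', hy', e⟩
  -- projection onto Y
  obtain ⟨P, hPY, -, hPm⟩ := exists_prj (W := Y) (X := ⊥) (by simp)
  -- intertwiners
  let E : Submodule k (Module.End k (MonoidAlgebra k G)) :=
    { carrier := {φ | φ ∘ₗ P = φ ∧ (∀ y ∈ Y, φ y ∈ L) ∧ ∀ c ∈ C, ∀ y ∈ Y,
        φ ((sg c : MonoidAlgebra k G) • y) = (sg c : MonoidAlgebra k G) • φ y}
      add_mem' := by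
        rintro φ φ' ⟨h1, h2, h3⟩ ⟨h1', h2', h3'⟩
        refine ⟨?_, fun y hy => L.add_mem (h2 y hy) (h2' y hy), fun c hc y hy => ?_⟩
        · rw [LinearMap.add_comp, h1, h1']
        · rw [LinearMap.add_apply, LinearMap.add_apply, h3 c hc y hy, h3' c hc y hy, smul_add]
      zero_mem' := ⟨LinearMap.zero_comp _, fun y _ => L.zero_mem, fun c _ y _ => by
        rw [LinearMap.zero_apply, LinearMap.zero_apply, smul_zero]⟩
      smul_mem' := by
        rintro a φ ⟨h1, h2, h3⟩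
        refine ⟨?_, fun y hy => L.smul_mem _ (h2 y hy), fun c hc y hy => ?_⟩
        · rw [LinearMap.smul_comp, h1]
        · rw [LinearMap.smul_apply, LinearMap.smul_apply, h3 c hc y hy, smul_comm] }
  have hEm : ∀ φ, φ ∈ E ↔ φ ∘ₗ P = φ ∧ (∀ y ∈ Y, φ y ∈ L) ∧ ∀ c ∈ C, ∀ y ∈ Y,
        φ ((sg c : MonoidAlgebra k G) • y) = (sg c : MonoidAlgebra k G) • φ y := fun φ => Iff.rfl
  have hPE : P ∈ E := by
    rw [hEm]
    refine ⟨?_, fun y hy => by rw [hPY y hy]; exact hYL hy, fun c hc y hy => ?_⟩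
    · refine LinearMap.ext fun x => ?_
      rw [LinearMap.comp_apply, hPY _ (hPm x)]
    · rw [hPY y hy, hPY _ (hY.st c hc y hy)]
  have hΦ : ∀ φ ∈ E, lm (MonoidAlgebra k G) (sg h₀) ∘ₗ φ ∘ₗ θ ∘ₗ P ∈ E := by
    intro φ hφ
    rw [hEm] at hφ ⊢
    obtain ⟨h1, h2, h3⟩ := hφ
    refine ⟨?_, fun y hy => ?_, fun c hc y hy => ?_⟩
    · refine LinearMap.ext fun x => ?_
      simp only [LinearMap.comp_apply]
      rw [hPY _ (hPm x)]
    · simp only [LinearMap.comp_apply]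
      rw [hPY y hy]
      exact hL.st h₀ hh₀ _ (h2 _ (hθY y hy))
    · simp only [LinearMap.comp_apply]
      rw [hPY y hy, hPY _ (hY.st c hc y hy), hθc c hc y hy, h3 _ (hc' c hc) _ (hθY y hy), lm_apply, lm_apply,
        hcomm c hc]
  let Φ : E →ₗ[k] E :=
    { toFun := fun φ => ⟨lm (MonoidAlgebra k G) (sg h₀) ∘ₗ (φ : Module.End k (MonoidAlgebra k G)) ∘ₗ θ ∘ₗ P, hΦ φ φ.2⟩
      map_add' := fun φ φ' => by
        apply Subtype.ext
        show lm (MonoidAlgebra k G) (sg h₀) ∘ₗ ((φ : Module.End k (MonoidAlgebra k G)) + (φ' : Module.End k (MonoidAlgebra k G))) ∘ₗ θ ∘ₗ P = _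
        rw [LinearMap.add_comp, LinearMap.comp_add]; rfl
      map_smul' := fun a φ => by
        apply Subtype.ext
        show lm (MonoidAlgebra k G) (sg h₀) ∘ₗ (a • (φ : Module.End k (MonoidAlgebra k G))) ∘ₗ θ ∘ₗ P = _
        rw [LinearMap.smul_comp, LinearMap.comp_smul]; rfl }
  have hP0 : P ≠ 0 := by
    intro h0
    apply hY.ne
    rw [Submodule.eq_bot_iff]
    intro y hy
    rw [← hPY y hy, h0, LinearMap.zero_apply]
  haveI : Nontrivial E := ⟨⟨⟨P, hPE⟩, 0, fun h => hP0 (congrArg Subtype.val h)⟩⟩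
  obtain ⟨μ, hμ⟩ := Module.End.exists_eigenvalue (K := k) (V := E) Φ
  obtain ⟨φ, hφ⟩ := hμ.exists_hasEigenvector
  have hφ0 : (φ : Module.End k (MonoidAlgebra k G)) ≠ 0 := fun h => hφ.2 (Subtype.ext h)
  have hφe : ∀ y ∈ Y, (sg h₀ : MonoidAlgebra k G) • (φ : Module.End k (MonoidAlgebra k G)) (θ y) =
      μ • (φ : Module.End k (MonoidAlgebra k G)) y := by
    intro y hy
    have h1 := congrArg (fun ψ : E => (ψ : Module.End k (MonoidAlgebra k G)) y) hφ.apply_eq_smul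
    have h2 : ((Φ φ : E) : Module.End k (MonoidAlgebra k G)) y =
        (sg h₀ : MonoidAlgebra k G) • (φ : Module.End k (MonoidAlgebra k G)) (θ (P y)) := rfl
    beta_reduce at h1
    rw [h2, hPY y hy] at h1
    exact h1
  obtain ⟨hφP, hφL, hφC⟩ := (hEm _).1 φ.2
  set U := Y.map (φ : Module.End k (MonoidAlgebra k G)) with hUdef
  have hUL : U ≤ L := by rintro _ ⟨y, hy, rfl⟩; exact hφL y hy
  have hUC : St C U := by
    rintro c hc _ ⟨y, hy, rfl⟩
    exact ⟨_, hY.st c hc y hy, hφC c hc y hy⟩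
  have hUh : ∀ x ∈ U, (sg h₀ : MonoidAlgebra k G) • x ∈ U := by
    rintro _ ⟨y, hy, rfl⟩
    obtain ⟨y', hy', rfl⟩ := hθs y hy
    rw [hφe y' hy']
    exact U.smul_mem _ ⟨y', hy', rfl⟩
  have hUn : ∀ n : ℕ, ∀ x ∈ U, (sg (h₀ ^ n) : MonoidAlgebra k G) • x ∈ U := by
    intro n
    induction n with
    | zero => intro x hx; rw [pow_zero, sg_one, one_smul]; exact hx
    | succ n ih => intro x hx; rw [pow_succ, sg_mul, mul_smul]; exact ih _ (hUh x hx)
  have hUH : St H U := by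
    intro h hh x hx
    obtain ⟨n, c, hc, rfl⟩ := hgen h hh
    rw [sg_mul, mul_smul]
    exact hUn n _ (hUC c hc x hx)
  have hex : ∃ y ∈ Y, (φ : Module.End k (MonoidAlgebra k G)) y ≠ 0 := by
    by_contra hcon
    push Not at hcon
    apply hφ0
    rw [← hφP]
    refine LinearMap.ext fun x => ?_
    rw [LinearMap.comp_apply, hcon _ (hPm x), LinearMap.zero_apply]
  obtain ⟨hUs, -⟩ := smp_map (S := MonoidAlgebra k G) hφC hY hex
  rcases hL.simple U hUL hUH with h1 | h1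
  · exact absurd h1 hUs.ne
  · rw [← h1]; exact hUs

/-- twists by distinct weights are not isomorphic -/
theorem tw_inj (hCH : C ≤ H) {w w' : G → k} (hw : Wt H C w) (hw' : Wt H C w')
    {L : Submodule k (MonoidAlgebra k G)} (hL : Smp H L) (hLC : Smp C L) (hLs : ∀ x ∈ L, Supp H x)
    {ψ : MonoidAlgebra k G →ₗ[k] MonoidAlgebra k G} (hψm : ∀ x ∈ L.map (tw w'), ψ x ∈ L.map (tw w))
    (hψh : HomOn H (L.map (tw w')) ψ) (hψi : ∀ x ∈ L.map (tw w'), ψ x = 0 → x = 0) :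
    ∀ h ∈ H, w h = w' h := by
  classical
  set φ := tw (fun g => (w g)⁻¹) ∘ₗ ψ ∘ₗ tw w' with hφ
  have hs : ∀ y ∈ L.map (tw w), Supp H y := by
    rintro _ ⟨x, hx, rfl⟩
    exact tw_supp w (hLs x hx)
  have hφL : ∀ x ∈ L, φ x ∈ L := by
    intro x hx
    obtain ⟨y, hy, e⟩ := hψm (tw w' x) ⟨x, hx, rfl⟩
    rw [hφ, LinearMap.comp_apply, LinearMap.comp_apply, ← e, tw_inv hw (hLs y hy)]
    exact hy
  have hφh : ∀ h ∈ H, ∀ x ∈ L, φ ((sg h : MonoidAlgebra k G) • x) =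
      (w' h * (w h)⁻¹) • ((sg h : MonoidAlgebra k G) • φ x) := by
    intro h hh x hx
    have e1 : tw w' ((sg h : MonoidAlgebra k G) • x) = w' h • ((sg h : MonoidAlgebra k G) • tw w' x) :=
      tw_sg hw' hh (hLs x hx)
    have e2 : tw (fun g => (w g)⁻¹) ((sg h : MonoidAlgebra k G) • ψ (tw w' x)) =
        (w h)⁻¹ • ((sg h : MonoidAlgebra k G) • tw (fun g => (w g)⁻¹) (ψ (tw w' x))) :=
      tw_sg hw.inv hh (hs _ (hψm _ ⟨x, hx, rfl⟩))
    rw [hφ, LinearMap.comp_apply, LinearMap.comp_apply, LinearMap.comp_apply, LinearMap.comp_apply, e1, map_smul,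
      hψh h hh _ ⟨x, hx, rfl⟩, map_smul, e2, smul_smul]
  have hφi : ∀ x ∈ L, φ x = 0 → x = 0 := by
    intro x hx h0
    have h1 : ψ (tw w' x) = 0 := by
      have := congrArg (tw w) h0
      rw [hφ, LinearMap.comp_apply, LinearMap.comp_apply, tw_inv' hw (hs _ (hψm _ ⟨x, hx, rfl⟩)), map_zero] at this
      exact this
    have h2 := hψi _ ⟨x, hx, rfl⟩ h1
    rw [← tw_inv hw' (hLs x hx), h2, map_zero]
  let φL : L →ₗ[k] L := φ.restrict hφL
  haveI : Nontrivial L := (Submodule.nontrivial_iff_ne_bot).2 hL.ne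
  obtain ⟨μ, hμ⟩ := Module.End.exists_eigenvalue (K := k) (V := L) φL
  obtain ⟨x₀, hx₀⟩ := hμ.exists_hasEigenvector
  have hx0 : (x₀ : MonoidAlgebra k G) ≠ 0 := fun h => hx₀.2 (Subtype.ext h)
  have hx1 : φ (x₀ : MonoidAlgebra k G) = μ • (x₀ : MonoidAlgebra k G) := congrArg Subtype.val hx₀.apply_eq_smul
  have hst : St C (L ⊓ LinearMap.ker (φ - μ • LinearMap.id)) := by
    intro c hc x hx
    refine ⟨hL.st c (hCH hc) x hx.1, ?_⟩
    have h1 : φ x - μ • x = 0 := hx.2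
    show φ ((sg c : MonoidAlgebra k G) • x) - μ • ((sg c : MonoidAlgebra k G) • x) = 0
    rw [hφh c (hCH hc) x hx.1, hw.one c hc, hw'.one c hc, inv_one, mul_one, one_smul, sub_eq_zero.1 h1, smul_comm,
      sub_self]
  have hall : ∀ x ∈ L, φ x = μ • x := by
    rcases hLC.simple _ inf_le_left hst with h1 | h1
    · exfalso
      apply hx0
      have : (x₀ : MonoidAlgebra k G) ∈ L ⊓ LinearMap.ker (φ - μ • LinearMap.id) := by
        refine ⟨x₀.2, ?_⟩
        show φ (x₀ : MonoidAlgebra k G) - μ • (x₀ : MonoidAlgebra k G) = 0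
        rw [hx1, sub_self]
      rw [h1, Submodule.mem_bot] at this
      exact this
    · intro x hx
      have : x ∈ L ⊓ LinearMap.ker (φ - μ • LinearMap.id) := by rw [h1]; exact hx
      exact sub_eq_zero.1 this.2
  have hμ0 : μ ≠ 0 := by
    intro h0
    apply hx0
    apply hφi _ x₀.2
    rw [hx1, h0, zero_smul]
  intro h hh
  have h1 := hφh h hh x₀ x₀.2
  rw [hall _ (hL.st h hh _ x₀.2), hx1, smul_comm (sg h : MonoidAlgebra k G) μ, smul_smul] at h1
  have h2 : (sg h : MonoidAlgebra k G) • (x₀ : MonoidAlgebra k G) ≠ 0 := by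
    intro h3
    apply hx0
    have := congrArg (fun y => (sg h⁻¹ : MonoidAlgebra k G) • y) h3
    beta_reduce at this
    rwa [smul_zero, ← mul_smul, sg_inv_mul, one_smul] at this
  have h3 := smul_left_injective k h2 h1
  have h4 : w' h * (w h)⁻¹ = 1 := by
    have : (w' h * (w h)⁻¹) * μ = 1 * μ := by rw [one_mul]; exact h3.symm
    exact mul_right_cancel₀ hμ0 this
  have h5 := hw.ne h hh
  field_simp at h4
  exact h4.symm

set_option maxHeartbeats 1600000 in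
/-- a family of pairwise non isomorphic simple modules -/
theorem family {p : ℕ} [hp : Fact p.Prime] [CharP k p] {B f a z : MonoidAlgebra k G}
    (hB : ∀ a : MonoidAlgebra k G, a * B = B * a) (hBB : B * B = B)
    {u : G} (hu : orderOf u = p) {H D N : Subgroup G} (huH : u ∈ H) (hCH : Ce (Subgroup.zpowers u) ≤ H)
    (hCn : ∀ h ∈ H, ∀ c ∈ Ce (Subgroup.zpowers u), h * c * h⁻¹ ∈ Ce (Subgroup.zpowers u))
    (hHn : ∀ h ∈ H, ∃ n : ℕ, h * u * h⁻¹ = u ^ n)
    (hfs : Supp (Ce (Subgroup.zpowers u)) f) (hfH : Fix H f) (hff : f * f = f) (hf0 : f ≠ 0)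
    (hBf : tr (Ce (Subgroup.zpowers u)) B * f = f) (hDH : D ≤ H) (hHN : H ≤ N)
    (haD : Fix D a) [DecidablePred (· ∈ H)]
    (hfa : f = cos D (fun g => if g ∈ H then cnj g a else 0))
    (h1 : ∀ g ∈ N, g ∉ H → f * cnj g f = 0)
    (h2 : ∀ g, g ∉ N → ∀ d ∈ D, g⁻¹ * d * g ∈ D → d = 1)
    (hz : NZ H z) (hn : ∃ n : ℕ, z ^ n * f = 0)
    (hss : ∀ J : Submodule (MonoidAlgebra k G) (MonoidAlgebra k G),
      SS H z (LinearMap.range (lm (k := k) (MonoidAlgebra k G ⧸ J) f)))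
    (hU : ∀ Y Y' : Submodule k (MonoidAlgebra k G), Smp (Ce (Subgroup.zpowers u)) Y →
      Smp (Ce (Subgroup.zpowers u)) Y' → (∀ y ∈ Y, f • y = y) →
      (∀ y ∈ Y', f • y = y) → ∃ ψ : MonoidAlgebra k G →ₗ[k] MonoidAlgebra k G, (∀ y ∈ Y, ψ y ∈ Y') ∧
        HomOn (Ce (Subgroup.zpowers u)) Y ψ ∧ ∀ y ∈ Y, ψ y = 0 → y = 0)
    {h₀ : G} (hh₀ : h₀ ∈ H) (hgen : ∀ h ∈ H, ∃ n : ℕ, ∃ c ∈ Ce (Subgroup.zpowers u), h = h₀ ^ n * c)
    {ι : Type*} (w : ι → G → k) (hw : ∀ i, Wt H (Ce (Subgroup.zpowers u)) (w i))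
    (hwne : ∀ i j, i ≠ j → ∃ h ∈ H, w i h ≠ w j h) :
    ∃ J : ι → Submodule (MonoidAlgebra k G) (MonoidAlgebra k G),
      (∀ i, IsSimpleModule (MonoidAlgebra k G) (MonoidAlgebra k G ⧸ J i)) ∧
      (∀ i (s : MonoidAlgebra k G ⧸ J i), B • s = s) ∧
      ∀ i j, i ≠ j → IsEmpty ((MonoidAlgebra k G ⧸ J i) ≃ₗ[MonoidAlgebra k G] (MonoidAlgebra k G ⧸ J j)) := by
  classical
  have hup : u ^ p = 1 := by rw [← hu]; exact pow_orderOf_eq_one u
  have hQH : Subgroup.zpowers u ≤ H := by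
    rw [Subgroup.zpowers_le]; exact huH
  have hQc : Nat.card (Subgroup.zpowers u) = p := by rw [Nat.card_zpowers, hu]
  have hQp : IsPGroup p (Subgroup.zpowers u) := IsPGroup.of_card (n := 1) (by rw [hQc, pow_one])
  obtain ⟨L, hL, hLs, hLf⟩ := exists_L (hfs.mono hCH) hfH hff hf0
  have hLC := irr hCH hCn hh₀ hgen hU hL hLf
  have hLi := fun i => smp_tw (hw i) hCH hfs hL hLs hLf
  have hex := fun i => exists_simple (p := p) hQH hCH hQp (by rw [hQc]) (hLi i).1.st (hLi i).1.ne (hLi i).2.1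
    (fun d hd x hx => triv_on huH hup hHn (hLi i).1 hd hx) hB hBB hBf (hLi i).2.2
  choose J hJs hJB γ hγ hγn using hex
  refine ⟨J, hJs, hJB, fun i j hij => ⟨fun e => ?_⟩⟩
  haveI := hJs i
  haveI : FiniteDimensional k (MonoidAlgebra k G ⧸ J i) := 
    Module.Finite.of_surjective ((Submodule.mkQ (J i)).restrictScalars k) (Submodule.mkQ_surjective _)
  set ε : (MonoidAlgebra k G ⧸ J j) →ₗ[k] (MonoidAlgebra k G ⧸ J i) :=
    (e.symm : (MonoidAlgebra k G ⧸ J j) →ₗ[MonoidAlgebra k G] (MonoidAlgebra k G ⧸ J i)).restrictScalars k with hε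
  set ε' : (MonoidAlgebra k G ⧸ J i) →ₗ[k] (MonoidAlgebra k G ⧸ J j) :=
    (e : (MonoidAlgebra k G ⧸ J i) →ₗ[MonoidAlgebra k G] (MonoidAlgebra k G ⧸ J j)).restrictScalars k with hε'
  have hγ' : HomOn H (L.map (tw (w j))) (ε ∘ₗ γ j) := by
    intro h hh x hx
    rw [LinearMap.comp_apply, LinearMap.comp_apply, hγ j h hh x hx]
    exact map_smul e.symm _ _
  have hγn' : ¬ PrOn H (L.map (tw (w j))) (ε ∘ₗ γ j) := by
    intro hpr
    apply hγn j
    have := hpr.comp (φ := ε') (fun g _ s => map_smul e _ _)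
    refine this.congr fun x _ => ?_
    exact (e.apply_symm_apply _).symm
  obtain ⟨n, hn⟩ := hn
  obtain ⟨ψ, hψm, hψh, hψi⟩ := unique hDH hHN haD hff hfH (hfs.mono hCH) hfa h1 h2 hz
    ⟨n, fun v hv => by rw [← hv, ← mul_smul, hn, zero_smul]⟩ (hss (J i)) (hLi i).1 (hLi j).1 (hLi i).2.2 (hLi j).2.2
    (hγ i) hγ' (hγn i) hγn'
  obtain ⟨h, hh, hne⟩ := hwne i j hij
  exact hne (tw_inj hCH (hw i) (hw j) hL hLC hLs hψm hψh hψi h hh)

end irr

end Cfsg.Agent.H25.Cyf
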