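import Cfsg.Agent.H25_STs
import Cfsg.Agent.H25_NilpAb
import Cfsg.Agent.H25_ExtFMT

/-! Blocks with cyclic defect group: local facts. -/

set_option autoImplicit false
set_option linter.unusedSectionVars false

namespace Cfsg.Agent.H25.Cyk

open Cfsg Cfsg.Agent.H25.Red Cfsg.Agent.H25.KG Cfsg.Agent.H25.BPTr Cfsg.Agent.H25.BPMain
  Cfsg.Agent.H25.BPDef Cfsg.Agent.H25.Fus Cfsg.Agent.H25.Nilp Cfsg.Agent.H25.NilpAb Cfsg.Agent.H25.ExtFMT
  Cfsg.Agent.H25.FMT Cfsg.Agent.H25.AbSec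

section grp
variable {G : Type*} [Group G] [Fintype G] {p : ℕ} [hp : Fact p.Prime] {P : Subgroup G}

theorem cyc_comm (hc : IsCyclic P) : ∀ x ∈ P, ∀ y ∈ P, x * y = y * x := by
  intro x hx y hy
  obtain ⟨g, hg⟩ := hc.exists_generator
  obtain ⟨i, hi⟩ := Subgroup.mem_zpowers_iff.1 (hg ⟨x, hx⟩)
  obtain ⟨j, hj⟩ := Subgroup.mem_zpowers_iff.1 (hg ⟨y, hy⟩)
  have h1 : (⟨x, hx⟩ : P) * ⟨y, hy⟩ = ⟨y, hy⟩ * ⟨x, hx⟩ := by
    rw [← hi, ← hj, ← zpow_add, ← zpow_add, add_comm]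
  exact congrArg Subtype.val h1

/-- the action of the normalizer of a cyclic group -/
theorem act_exp (hc : IsCyclic P) {t : G} (ht : t ∈ Nm P) : ∃ k : ℤ, ∀ x ∈ P, t * x * t⁻¹ = x ^ k := by
  obtain ⟨g, hg⟩ := hc.exists_generator
  have h1 : t * (g : G) * t⁻¹ ∈ P := (Subgroup.mem_normalizer_iff.1 ht g).1 g.2
  obtain ⟨k, hk⟩ := Subgroup.mem_zpowers_iff.1 (hg ⟨_, h1⟩)
  refine ⟨k, fun x hx => ?_⟩
  obtain ⟨i, hi⟩ := Subgroup.mem_zpowers_iff.1 (hg ⟨x, hx⟩)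
  have h2 : x = (g : G) ^ i := (congrArg Subtype.val hi).symm
  have h3 : t * (g : G) * t⁻¹ = (g : G) ^ k := (congrArg Subtype.val hk).symm
  rw [h2]
  calc t * (g : G) ^ i * t⁻¹ = (t * (g : G) * t⁻¹) ^ i := by rw [conj_zpow]
    _ = ((g : G) ^ i) ^ k := by rw [h3, ← zpow_mul, ← zpow_mul, mul_comm]

theorem norm_sub (hc : IsCyclic P) {Q : Subgroup G} (hQ : Q ≤ P) {t : G} (ht : t ∈ Nm P) : t ∈ Nm Q := by
  obtain ⟨k, hk⟩ := act_exp hc ht
  show t ∈ Subgroup.normalizer (Q : Set G)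
  rw [mem_normalizer_iff_cs]
  apply Subgroup.eq_of_le_of_card_ge
  · rintro _ ⟨x, hx, rfl⟩
    show t * x * t⁻¹ ∈ Q
    rw [hk x (hQ hx)]
    exact Q.zpow_mem hx k
  · rw [card_cs]

theorem fix_cyc (hc : IsCyclic P) (hP : IsPGroup p P) {t : G} (ht : t ∈ Nm P) {m : ℕ} (hm : t ^ m ∈ Ce P)
    (hmp : ¬ p ∣ m) {x : G} (hx : x ∈ P) (hx1 : x ≠ 1) (hfix : t * x * t⁻¹ = x) : t ∈ Ce P := by
  obtain ⟨k, hk⟩ := act_exp hc ht
  obtain ⟨n, hn⟩ := IsPGroup.iff_card.1 hP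
  -- p | k - 1
  have hk1 : (p : ℤ) ∣ k - 1 := by
    by_contra hnd
    apply hx1
    have h1 : x ^ (k - 1) = 1 := by
      rw [zpow_sub_one, mul_inv_eq_one, ← hk x hx, hfix]
    have h2 : x ^ ((p ^ n : ℕ) : ℤ) = 1 := by
      rw [zpow_natCast, ← hn]
      have : (⟨x, hx⟩ : P) ^ Nat.card P = 1 := pow_card_eq_one'
      exact congrArg Subtype.val this
    have h3 : Int.gcd (k - 1) ((p ^ n : ℕ) : ℤ) = 1 := by
      rw [Int.gcd_comm, Int.gcd_eq_natAbs, Int.natAbs_natCast]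
      apply Nat.Coprime.pow_left
      rw [Nat.Prime.coprime_iff_not_dvd hp.out]
      intro h
      exact hnd (Int.natCast_dvd.2 h)
    have h4 := Int.gcd_eq_gcd_ab (k - 1) ((p ^ n : ℕ) : ℤ)
    rw [h3] at h4
    have h5 : x ^ ((1 : ℕ) : ℤ) = 1 := by
      rw [h4, zpow_add, zpow_mul, zpow_mul, h1, h2, one_zpow, one_zpow, one_mul]
    simpa using h5
  have hpow : ∀ j : ℕ, ∀ y ∈ P, t ^ j * y * (t ^ j)⁻¹ = y ^ (k ^ j) := by
    intro j
    induction j with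
    | zero => intro y _; simp
    | succ j ih =>
      intro y hy
      have e : t ^ (j + 1) * y * (t ^ (j + 1))⁻¹ = t ^ j * (t * y * t⁻¹) * (t ^ j)⁻¹ := by
        rw [pow_succ]; group
      rw [e, hk y hy, ih _ (P.zpow_mem hy k), ← zpow_mul, pow_succ, mul_comm k]
  have h6 : t ^ (p ^ n) ∈ Ce P := by
    rw [Subgroup.mem_centralizer_iff]
    intro y hy
    have h7 : t ^ (p ^ n) * y * (t ^ (p ^ n))⁻¹ = y := by
      rw [hpow _ y hy]
      have h8 := dvd_sub_pow_of_dvd_sub hk1 n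
      rw [one_pow] at h8
      obtain ⟨c, hc'⟩ := h8
      have h9 : k ^ p ^ n = 1 + ((p ^ n : ℕ) : ℤ) * (p * c) := by
        push_cast
        rw [pow_succ] at hc'
        linear_combination hc'
      have h2 : y ^ ((p ^ n : ℕ) : ℤ) = 1 := by
        rw [zpow_natCast, ← hn]
        have : (⟨y, hy⟩ : P) ^ Nat.card P = 1 := pow_card_eq_one'
        exact congrArg Subtype.val this
      rw [h9, zpow_add, zpow_one, zpow_mul, h2, one_zpow, mul_one]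
    calc y * t ^ (p ^ n) = (t ^ (p ^ n) * y * (t ^ (p ^ n))⁻¹) * t ^ (p ^ n) := by rw [h7]
      _ = t ^ (p ^ n) * y := by group
  have h3 : Int.gcd ((p ^ n : ℕ) : ℤ) (m : ℤ) = 1 := by
    rw [Int.gcd_natCast_natCast]
    exact ((Nat.Prime.coprime_iff_not_dvd hp.out).2 hmp).pow_left n
  have h4 := Int.gcd_eq_gcd_ab ((p ^ n : ℕ) : ℤ) (m : ℤ)
  rw [h3] at h4
  have h5 : t ^ ((1 : ℕ) : ℤ) ∈ Ce P := by
    rw [h4, zpow_add, zpow_mul, zpow_mul, zpow_natCast, zpow_natCast]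
    exact (Ce P).mul_mem ((Ce P).zpow_mem h6 _) ((Ce P).zpow_mem hm _)
  simpa using h5

end grp

section main
variable {M : Ideal AlgInt} {G : Type*} [Group G] [Fintype G] {p : ℕ} [hp : Fact p.Prime]
  [hMax : M.IsMaximal] [hch : CharP (KM M) p] {B : MonoidAlgebra (KM M) G} {P Q : Subgroup G}
  {E f : MonoidAlgebra (KM M) G}

theorem idx_ab (hM : IsPModular p M) (hP : BP p B P E) (htop : KG.Top p P E)
    (hab : ∀ x ∈ P, ∀ y ∈ P, x * y = y * x) : ¬ p ∣ (Ce P).relIndex (Nf P E) := by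
  have hle : P ≤ Ce P := le_Ce_ab hab le_rfl
  exact (ExtFMT.top_iff hM hP.1 (by rw [sup_eq_right.2 hle]) hP.be
    (dgh_ab hM hP htop hab (LE.refl _ _)) (fun g => mem_Nf)).1 htop

theorem pow_mem_Ce (hE : IsBlk (Ce P) E) {t : G} (ht : t ∈ Nf P E) : t ^ ((Ce P).relIndex (Nf P E)) ∈ Ce P := by
  have hle : Nf P E ≤ Nm (Ce P) := fun g hg => norm_le_norm_Ce P hg.1
  haveI : ((Ce P).subgroupOf (Nf P E)).Normal := (Subgroup.normal_subgroupOf_iff_le_normalizer (Ce_le_Nf hE)).2 hle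
  have h1 := Subgroup.pow_index_mem ((Ce P).subgroupOf (Nf P E)) ⟨t, ht⟩
  rw [Subgroup.mem_subgroupOf] at h1
  exact h1

/-- freeness of the action -/
theorem free_cyc (hM : IsPModular p M) (hP : BP p B P E) (htop : KG.Top p P E) (hc : IsCyclic P) {t : G}
    (ht : t ∈ Nf P E) {x : G} (hx : x ∈ P) (hx1 : x ≠ 1) (hfix : t * x * t⁻¹ = x) : t ∈ Ce P :=
  fix_cyc hc hP.pg ht.1 (pow_mem_Ce hP.be ht) (idx_ab hM hP htop (cyc_comm hc)) hx hx1 hfix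

theorem inf_Ce (hM : IsPModular p M) (hP : BP p B P E) (htop : KG.Top p P E) (hc : IsCyclic P) (hQ : Q ≤ P)
    (hQ1 : Q ≠ ⊥) : Nf P E ⊓ Ce Q = Ce P := by
  apply le_antisymm
  · rintro t ⟨ht, htQ⟩
    obtain ⟨⟨x, hx⟩, hx1'⟩ := Subgroup.ne_bot_iff_exists_ne_one.1 hQ1
    have hx1 : x ≠ 1 := fun h => hx1' (Subtype.ext h)
    refine free_cyc hM hP htop hc ht (hQ hx) hx1 ?_
    have h1 := Subgroup.mem_centralizer_iff.1 htQ x hx
    rw [← h1]; group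
  · exact le_inf (Ce_le_Nf hP.be) (Ce_anti hQ)

theorem Nf_eq (hM : IsPModular p M) (hP : BP p B P E) (htop : KG.Top p P E) (hc : IsCyclic P) (hle : LE p Q f P E) :
    Nf Q f = Nf P E ⊔ Ce Q := by
  have hfb := (hle.pair hP.pg hP.be).2
  apply le_antisymm
  · intro g hg
    obtain ⟨y, hy, hyc⟩ := ab_control hM hP htop (cyc_comm hc) (FR.of_stab hg.1 hle hg.2)
    have : g = y * (y⁻¹ * g) := by group
    rw [this]
    exact Subgroup.mul_mem_sup hy hyc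
  · refine sup_le ?_ (Ce_le_Nf hfb)
    intro t ht
    have hn := norm_sub hc hle.le ht.1
    refine ⟨hn, ?_⟩
    have h1 := hle.cnj t
    rw [mem_normalizer_iff_cs.1 hn, mem_normalizer_iff_cs.1 ht.1, ht.2] at h1
    exact le_unique hP.pg hP.be h1 hle

theorem relIdx (hM : IsPModular p M) (hP : BP p B P E) (htop : KG.Top p P E) (hc : IsCyclic P) (hle : LE p Q f P E)
    (hQ1 : Q ≠ ⊥) : (Ce Q).relIndex (Nf Q f) = (Ce P).relIndex (Nf P E) := by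
  rw [Nf_eq hM hP htop hc hle, sup_comm]
  have h1 : Nf P E ≤ Nm (Ce Q) := fun t ht => norm_le_norm_Ce Q (norm_sub hc hle.le ht.1)
  rw [relIndex_sup h1, ← inf_Ce hM hP htop hc hle.le hQ1, inf_comm, Subgroup.inf_relIndex_right]

end main

end Cfsg.Agent.H25.Cyk
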