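import Mathlib
import Cfsg.Agent.H25_Cyf
import Cfsg.Agent.H25_Cye
import Cfsg.Agent.H25_Cyk
import Cfsg.Agent.H25_STs
import Cfsg.Agent.H9_BrMain

/-!
H25_Cyg: the lower bound for the p-regular rank of a block with cyclic defect group.
-/

set_option autoImplicit false
set_option linter.unusedSectionVars false

open scoped ComplexConjugate

namespace Cfsg.Agent.H25.Cyg

open Module Cfsg Cfsg.Agent.H10.BlockLoc Cfsg.Agent.H10.BlockAlg Cfsg.Agent.H10.BlockIdem Cfsg.Agent.H3.CharIrr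
  Cfsg.Agent.H25.Red Cfsg.Agent.H25.KG Cfsg.Agent.H25.BPTr Cfsg.Agent.H25.BPMain Cfsg.Agent.H25.BPDef
  Cfsg.Agent.H25.Fus Cfsg.Agent.H25.Nilp Cfsg.Agent.H25.NilpAb Cfsg.Agent.H25.FMT
  Cfsg.Agent.H25.Cya Cfsg.Agent.H25.Cyb Cfsg.Agent.H25.Cyc Cfsg.Agent.H25.Cyd Cfsg.Agent.H25.Cye
  Cfsg.Agent.H25.Cyf Cfsg.Agent.H25.Cyk Cfsg.Agent.H9.BrMod4

section weights

variable {k : Type*} [Field k] [IsAlgClosed k] {G : Type*} [Group G] [Fintype G]

/-- linear characters of `H` through a homomorphism to units mod `p` -/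
theorem exists_weights {p : ℕ} [hp : Fact p.Prime] [CharP k p] {H C : Subgroup G} (μ : H →* (ZMod p)ˣ)
    (hμ : μ.ker = C.subgroupOf H) : ∃ (ι : Type) (_ : Fintype ι) (w : ι → G → k), Fintype.card ι = C.relIndex H ∧
      (∀ i, Wt H C (w i)) ∧ (∀ i j, i ≠ j → ∃ h ∈ H, w i h ≠ w j h) ∧
      ∃ h₀ ∈ H, ∀ h ∈ H, ∃ n : ℕ, ∃ c ∈ C, h = h₀ ^ n * c := by
  classical
  haveI : Finite μ.range := inferInstance
  have hcard : Nat.card μ.range = C.relIndex H := by
    rw [← Subgroup.index_ker, hμ]; rfl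
  haveI : IsCyclic μ.range := inferInstance
  have hne : NeZero ((Monoid.exponent μ.range : ℕ) : k) := by
    refine ⟨fun h0 => ?_⟩
    rw [CharP.cast_eq_zero_iff k p] at h0
    have h1 : Monoid.exponent μ.range ∣ Nat.card μ.range := Group.exponent_dvd_nat_card
    have h2 : Nat.card μ.range ∣ Nat.card (ZMod p)ˣ := Subgroup.card_subgroup_dvd_card _
    have h3 : Nat.card (ZMod p)ˣ = p - 1 := by
      rw [Nat.card_eq_fintype_card, ZMod.card_units]
    have h4 : p ∣ p - 1 := by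
      rw [← h3]; exact (h0.trans h1).trans h2
    have h5 := hp.out.two_le
    have := Nat.le_of_dvd (by omega) h4
    omega
  haveI : HasEnoughRootsOfUnity k (Monoid.exponent μ.range) := inferInstance
  have hc2 : Nat.card (μ.range →* kˣ) = Nat.card μ.range :=
    CommGroup.card_monoidHom_of_hasEnoughRootsOfUnity μ.range k
  haveI : Finite (μ.range →* kˣ) := Nat.finite_of_card_ne_zero (by rw [hc2]; exact Nat.card_pos.ne')
  obtain ⟨n, ⟨e⟩⟩ := Finite.exists_equiv_fin (μ.range →* kˣ)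
  obtain ⟨W, hW1, hW2⟩ : ∃ W : Fin n → G → k, (∀ i g (hg : g ∈ H), W i g = ((e.symm i) (μ.rangeRestrict ⟨g, hg⟩) : kˣ)) ∧
      ∀ i g, g ∉ H → W i g = 1 :=
    ⟨fun i g => if hg : g ∈ H then ((e.symm i) (μ.rangeRestrict ⟨g, hg⟩) : kˣ) else 1,
      fun i g hg => dif_pos hg, fun i g hg => dif_neg hg⟩
  refine ⟨Fin n, inferInstance, W, ?_, ?_, ?_, ?_⟩
  · rw [← hcard, ← hc2, Nat.card_congr e, Nat.card_eq_fintype_card]
  · intro i
    refine ⟨?_, ?_, ?_⟩
    · intro h hh h' hh'
      have h1 : (⟨h * h', H.mul_mem hh hh'⟩ : H) = ⟨h, hh⟩ * ⟨h', hh'⟩ := rfl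
      rw [hW1 i _ (H.mul_mem hh hh'), hW1 i _ hh, hW1 i _ hh', h1, map_mul, map_mul, Units.val_mul]
    · intro h hh
      rw [hW1 i _ hh]
      exact Units.ne_zero _
    · intro c hc
      by_cases hcH : c ∈ H
      · have h1 : μ ⟨c, hcH⟩ = 1 := by
          rw [← MonoidHom.mem_ker, hμ, Subgroup.mem_subgroupOf]; exact hc
        have h2 : μ.rangeRestrict ⟨c, hcH⟩ = 1 := Subtype.ext h1
        rw [hW1 i _ hcH, h2, map_one, Units.val_one]
      · exact hW2 i c hcH
  · intro i j hij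
    by_contra hcon
    push Not at hcon
    apply hij
    apply e.symm.injective
    refine MonoidHom.ext ?_
    rintro ⟨_, ⟨h, hh⟩, rfl⟩
    have := hcon h hh
    rw [hW1 i _ hh, hW1 j _ hh] at this
    exact Units.ext this
  · obtain ⟨⟨y, ⟨h₀, hh₀⟩, hy⟩, hgen⟩ := IsCyclic.exists_generator (α := μ.range)
    refine ⟨h₀, hh₀, fun h hh => ?_⟩
    have h1 := hgen ⟨μ ⟨h, hh⟩, ⟨h, hh⟩, rfl⟩
    rw [← mem_powers_iff_mem_zpowers] at h1
    obtain ⟨m, hm⟩ := h1
    have h2 : y ^ m = μ ⟨h, hh⟩ := congrArg Subtype.val hm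
    rw [← hy, ← map_pow] at h2
    refine ⟨m, (h₀ ^ m)⁻¹ * h, ?_, by rw [mul_inv_cancel_left]⟩
    have h3 : (⟨h₀, hh₀⟩ ^ m : H)⁻¹ * ⟨h, hh⟩ ∈ μ.ker := by
      rw [MonoidHom.mem_ker, map_mul, map_inv, h2, inv_mul_cancel]
    rw [hμ, Subgroup.mem_subgroupOf] at h3
    exact h3

end weights

section main

variable {M : Ideal AlgInt} {G : Type*} [Group G] [Fintype G] {p : ℕ} [hp : Fact p.Prime]
  [hMax : M.IsMaximal] [hch : CharP (KM M) p]

/-- the representation of a subgroup on a stable subspace -/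
noncomputable def srep {k : Type*} [Field k] {C : Subgroup G} {Y : Submodule k (MonoidAlgebra k G)} (hY : St C Y) :
    C →* Module.End k Y where
  toFun c := (lm (MonoidAlgebra k G) (sg (c : G))).restrict fun y hy => hY c c.2 y hy
  map_one' := by
    refine LinearMap.ext fun y => Subtype.ext ?_
    show (sg ((1 : C) : G) : MonoidAlgebra k G) • (y : MonoidAlgebra k G) = y
    rw [Subgroup.coe_one, sg_one, one_smul]
  map_mul' c d := by
    refine LinearMap.ext fun y => Subtype.ext ?_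
    show (sg ((c * d : C) : G) : MonoidAlgebra k G) • (y : MonoidAlgebra k G) =
      (sg (c : G) : MonoidAlgebra k G) • (sg (d : G) : MonoidAlgebra k G) • (y : MonoidAlgebra k G)
    rw [Subgroup.coe_mul, sg_mul, mul_smul]

theorem srep_coe {k : Type*} [Field k] {C : Subgroup G} {Y : Submodule k (MonoidAlgebra k G)} (hY : St C Y) (c : C)
    (y : Y) : (srep hY c y : MonoidAlgebra k G) = (sg (c : G) : MonoidAlgebra k G) • (y : MonoidAlgebra k G) := rfl

/-- blocks of p-regular rank one have a unique simple module -/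
theorem uniq_simple (hM : IsPModular p M) {C : Subgroup G} {b : Set (IrrCharacter C)} (hb : IsPBlock M b)
    (hr : blockRank p b = 1) {Y Y' : Submodule (KM M) (MonoidAlgebra (KM M) G)} (hY : Smp C Y) (hY' : Smp C Y')
    (hf : ∀ y ∈ Y, ep M C b • y = y) (hf' : ∀ y ∈ Y', ep M C b • y = y) :
    ∃ ψ : MonoidAlgebra (KM M) G →ₗ[KM M] MonoidAlgebra (KM M) G, (∀ y ∈ Y, ψ y ∈ Y') ∧ HomOn C Y ψ ∧
      ∀ y ∈ Y, ψ y = 0 → y = 0 := by
  classical
  haveI : Fintype C := Fintype.ofFinite _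
  -- from an intertwining isomorphism to the conclusion
  have hmk : ∀ φ : Y ≃ₗ[KM M] Y', (∀ (c : C) (y : Y), φ (srep hY.st c y) = srep hY'.st c (φ y)) →
      ∃ ψ : MonoidAlgebra (KM M) G →ₗ[KM M] MonoidAlgebra (KM M) G, (∀ y ∈ Y, ψ y ∈ Y') ∧ HomOn C Y ψ ∧
      ∀ y ∈ Y, ψ y = 0 → y = 0 := by
    intro φ hφ
    obtain ⟨r, hr⟩ := LinearMap.exists_leftInverse_of_injective (Y.subtype) (Submodule.ker_subtype Y)
    have hr' : ∀ (x : MonoidAlgebra (KM M) G) (hx : x ∈ Y), r x = ⟨x, hx⟩ := fun x hx => LinearMap.congr_fun hr ⟨x, hx⟩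
    refine ⟨Y'.subtype ∘ₗ φ.toLinearMap ∘ₗ r, fun y _ => Subtype.property _, ?_, ?_⟩
    · intro c hc y hy
      show ((φ (r ((sg c : MonoidAlgebra (KM M) G) • y)) : Y') : MonoidAlgebra (KM M) G) =
        (sg c : MonoidAlgebra (KM M) G) • ((φ (r y) : Y') : MonoidAlgebra (KM M) G)
      have e1 : r ((sg c : MonoidAlgebra (KM M) G) • y) = srep hY.st ⟨c, hc⟩ (r y) := by
        rw [hr' y hy, hr' _ (hY.st c hc y hy)]; rfl
      rw [e1, hφ]; rfl
    · intro y hy h0
      have h1 : φ (r y) = 0 := Subtype.ext h0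
      rw [LinearEquiv.map_eq_zero_iff, hr' y hy] at h1
      exact congrArg Subtype.val h1
  by_contra hcon
  have hno : ∀ φ : Y ≃ₗ[KM M] Y', ¬ ∀ (c : C) (y : Y), φ (srep hY.st c y) = srep hY'.st c (φ y) :=
    fun φ h => hcon (hmk φ h)
  let Ys : Bool → Submodule (KM M) (MonoidAlgebra (KM M) G) := fun i => if i then Y else Y'
  have hYs : ∀ i, Smp C (Ys i) := by
    intro i; cases i
    · exact hY'
    · exact hY
  have hfs : ∀ i, ∀ y ∈ Ys i, ep M C b • y = y := by
    intro i; cases i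
    · exact hf'
    · exact hf
  haveI : ∀ i, Nontrivial (Ys i) := fun i => (Submodule.nontrivial_iff_ne_bot).2 (hYs i).ne
  have key := card_simple_le (p := p) hM hb (fun i => Ys i) (fun i => srep (hYs i).st) ?_ ?_ ?_
  · rw [hr, Fintype.card_bool] at key
    omega
  · intro i U hU
    have h1 : St C (U.map (Ys i).subtype) := by
      rintro c hc _ ⟨y, hy, rfl⟩
      exact ⟨_, hU ⟨c, hc⟩ y hy, rfl⟩
    rcases (hYs i).simple _ (by rintro _ ⟨y, _, rfl⟩; exact y.2) h1 with h2 | h2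
    · left
      rw [Submodule.eq_bot_iff]
      intro u hu
      have : (Ys i).subtype u ∈ U.map (Ys i).subtype := ⟨u, hu, rfl⟩
      rw [h2, Submodule.mem_bot] at this
      exact Subtype.ext this
    · right
      rw [Submodule.eq_top_iff']
      intro u
      have : (u : MonoidAlgebra (KM M) G) ∈ U.map (Ys i).subtype := by rw [h2]; exact u.2
      obtain ⟨v, hv, e⟩ := this
      have : v = u := Subtype.ext e
      rwa [← this]
  · intro i j hij φ hφ
    cases i <;> cases j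
    · exact hij rfl
    · refine hno φ.symm fun c y => ?_
      rw [LinearEquiv.symm_apply_eq]
      have := hφ c (φ.symm y)
      rw [LinearEquiv.apply_symm_apply] at this
      exact this.symm
    · exact hno φ hφ
    · exact hij rfl
  · intro i s
    apply Subtype.ext
    have h1 := hfs i s s.2
    rw [smul_eq_sum] at h1
    have h2 : (((∑ g : C, rd M (blockCoeff b g) • srep (hYs i).st g s) : Ys i) : MonoidAlgebra (KM M) G) =
        ∑ g : C, rd M (blockCoeff b g) • ((sg (g : G) : MonoidAlgebra (KM M) G) • (s : MonoidAlgebra (KM M) G)) := by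
      rw [Submodule.coe_sum]
      rfl
    rw [h2]
    refine Eq.trans ?_ h1
    have h3 : ∑ g : G, (ep M C b).coeff g • ((sg g : MonoidAlgebra (KM M) G) • (s : MonoidAlgebra (KM M) G)) =
        ∑ g ∈ Finset.univ.filter (fun g : G => g ∈ C), (ep M C b).coeff g •
          ((sg g : MonoidAlgebra (KM M) G) • (s : MonoidAlgebra (KM M) G)) := by
      rw [Finset.sum_filter]
      refine Finset.sum_congr rfl fun g _ => ?_
      split_ifs with hg
      · rfl
      · rw [ep_c, sbc_notMem b hg, rd_zero, zero_smul]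
    have h4 : ∑ g ∈ Finset.univ.filter (fun g : G => g ∈ C), (ep M C b).coeff g •
          ((sg g : MonoidAlgebra (KM M) G) • (s : MonoidAlgebra (KM M) G)) = ∑ g : C, (ep M C b).coeff (g : G) •
          ((sg (g : G) : MonoidAlgebra (KM M) G) • (s : MonoidAlgebra (KM M) G)) :=
      Finset.sum_subtype _ (fun g => by simp) _
    rw [h3, h4]
    refine Finset.sum_congr rfl fun g _ => ?_
    rw [ep_c, sbc_mem b g.2]

open Classical in
/-- rank one for the centralizer block -/
theorem rank_cent (hM : IsPModular p M) {B : MonoidAlgebra (KM M) G} {P Q : Subgroup G}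
    {E f : MonoidAlgebra (KM M) G} (hP : BP p B P E) (htop : KG.Top p P E) (hc : IsCyclic P)
    (hle : LE p Q f P E) (hQ1 : Q ≠ ⊥) : ∃ b : Set (IrrCharacter (Ce Q)), IsPBlock M b ∧ ep M (Ce Q) b = f ∧
      IsNilpotentBlock p M b ∧ blockRank p b = 1 := by
  haveI : Fintype (Ce Q) := Fintype.ofFinite _
  have hf := (hle.pair hP.pg hP.be).2
  obtain ⟨b, hb, rfl⟩ := exists_ep hf
  have hnil : IsNilpotentBlock p M b := by
    rw [nilpH_iff', and_iff_right hb, nilp_ab_rel hM hP htop (cyc_comm hc) hle,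
      inf_Ce hM hP htop hc hle.le hQ1]
  obtain ⟨hB', hn⟩ := nilp_iff.1 hnil
  exact ⟨b, hb, rfl, hnil, (H25.STs.nil_rank hM hB' hn).1⟩

omit [Fintype G] [hMax : M.IsMaximal] [hch : CharP (KM M) p] in
theorem zp_mem_of_order [Finite G] {P : Subgroup G} (hc : IsCyclic P) {u v : G} (hu : u ∈ P) (hv : v ∈ P)
    (huo : orderOf u = p) (hvo : orderOf v = p) : v ∈ Subgroup.zpowers u := by
  classical
  haveI := hc
  haveI : Fintype P := Fintype.ofFinite _
  have h1 : orderOf (⟨u, hu⟩ : P) = p := by rw [Subgroup.orderOf_mk, huo]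
  have h2 : (⟨v, hv⟩ : P) ^ p = 1 := by
    apply Subtype.ext
    show v ^ p = 1
    rw [← hvo, pow_orderOf_eq_one]
  have h3 := IsCyclic.card_pow_eq_one_le (α := P) hp.out.pos
  set T := Finset.univ.filter (fun x : P => x ∈ Subgroup.zpowers (⟨u, hu⟩ : P)) with hT
  have h4 : T.card = p := by
    rw [← h1, ← Nat.card_zpowers, Nat.card_eq_fintype_card, hT, Fintype.card_subtype]
  have h5 : T ⊆ Finset.univ.filter (fun x : P => x ^ p = 1) := by
    intro x hx
    rw [Finset.mem_filter] at hx ⊢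
    obtain ⟨n, rfl⟩ := Subgroup.mem_zpowers_iff.1 hx.2
    refine ⟨Finset.mem_univ _, ?_⟩
    have : (⟨u, hu⟩ : P) ^ p = 1 := by
      have := pow_orderOf_eq_one (⟨u, hu⟩ : P)
      rwa [h1] at this
    rw [← zpow_natCast, ← zpow_mul, mul_comm, zpow_mul, zpow_natCast, this, one_zpow]
  have h6 : T = Finset.univ.filter (fun x : P => x ^ p = 1) := Finset.eq_of_subset_of_card_le h5 (by rw [h4]; exact h3)
  have h7 : (⟨v, hv⟩ : P) ∈ T := by
    rw [h6, Finset.mem_filter]; exact ⟨Finset.mem_univ _, h2⟩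
  rw [hT, Finset.mem_filter] at h7
  obtain ⟨n, hn⟩ := Subgroup.mem_zpowers_iff.1 h7.2
  exact Subgroup.mem_zpowers_iff.2 ⟨n, congrArg Subtype.val hn⟩

/-- elements outside the normalizer of the subgroup of order `p` -/
theorem cyc_ti {P : Subgroup G} (hP : IsPGroup p P) (hc : IsCyclic P) {u : G} (hu : u ∈ P) (huo : orderOf u = p)
    {g : G} (hg : g ∉ Nm (Subgroup.zpowers u)) {d : G} (hd : d ∈ P) (hgd : g⁻¹ * d * g ∈ P) : d = 1 := by
  by_contra hd1
  obtain ⟨n, hn⟩ := IsPGroup.iff_orderOf.1 hP ⟨d, hd⟩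
  rw [Subgroup.orderOf_mk] at hn
  have hn0 : n ≠ 0 := by
    rintro rfl
    rw [pow_zero, orderOf_eq_one_iff] at hn
    exact hd1 hn
  set v := d ^ p ^ (n - 1) with hv
  have hvo : orderOf v = p := by
    rw [hv, orderOf_pow, hn]
    have h1 : p ^ n = p ^ (n - 1) * p := by
      rw [← pow_succ]; congr 1; omega
    rw [h1, Nat.gcd_eq_right (dvd_mul_right _ _), Nat.mul_div_cancel_left _ (pow_pos hp.out.pos _)]
  have hvP : v ∈ P := P.pow_mem hd _
  have hvg : g⁻¹ * v * g ∈ P := by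
    have : g⁻¹ * v * g = (g⁻¹ * d * g) ^ p ^ (n - 1) := by
      have h2 := conj_pow (i := p ^ (n - 1)) (a := g⁻¹) (b := d)
      rw [inv_inv] at h2
      rw [hv, h2]
    rw [this]; exact P.pow_mem hgd _
  have hvgo : orderOf (g⁻¹ * v * g) = p := by
    rw [← hvo]
    have := orderOf_injective (MulAut.conj g⁻¹).toMonoidHom (MulAut.conj g⁻¹).injective v
    simpa using this
  have h1 : Subgroup.zpowers v = Subgroup.zpowers u :=
    Subgroup.eq_of_le_of_card_ge ((Subgroup.zpowers_le).2 (zp_mem_of_order hc hu hvP huo hvo)) (by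
      rw [Nat.card_zpowers, Nat.card_zpowers, huo, hvo])
  have h2 : g⁻¹ * v * g ∈ Subgroup.zpowers v := by
    rw [h1]; exact zp_mem_of_order hc hu hvg huo hvgo
  apply hg
  rw [← h1]
  have h3 : g⁻¹ ∈ Nm (Subgroup.zpowers v) := by
    show g⁻¹ ∈ Subgroup.normalizer (Subgroup.zpowers v : Set G)
    rw [mem_normalizer_iff_cs]
    refine Subgroup.eq_of_le_of_card_ge ?_ ?_
    · rintro _ ⟨x, hx, rfl⟩
      obtain ⟨m, rfl⟩ := Subgroup.mem_zpowers_iff.1 hx
      show g⁻¹ * v ^ m * (g⁻¹)⁻¹ ∈ Subgroup.zpowers v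
      rw [← conj_zpow, inv_inv]
      exact Subgroup.zpow_mem _ h2 m
    · rw [card_cs]
  simpa using (Nm (Subgroup.zpowers v)).inv_mem h3

set_option maxHeartbeats 1600000 in
open Classical in
/-- the lower bound for the rank of a block with cyclic defect group, given the serial structure data -/
theorem lower (hM : IsPModular p M) {B : Set (IrrCharacter G)} (hB : IsPBlock M B) {P : Subgroup G}
    {E f : MonoidAlgebra (KM M) G} (hP : BP p (epG M B) P E) (htop : KG.Top p P E) (hc : IsCyclic P)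
    {u : G} (huP : u ∈ P) (huo : orderOf u = p) (hle : LE p (Subgroup.zpowers u) f P E)
    {a z : MonoidAlgebra (KM M) G} (haP : KG.Fix P a)
    (hfa : f = cos P (fun g => if g ∈ Nf (Subgroup.zpowers u) f then KG.cnj g a else 0))
    (hz : NZ (Nf (Subgroup.zpowers u) f) z) (hn : ∃ n : ℕ, z ^ n * f = 0)
    (hss : ∀ J : Submodule (MonoidAlgebra (KM M) G) (MonoidAlgebra (KM M) G),
      SS (Nf (Subgroup.zpowers u) f) z (LinearMap.range (lm (k := KM M) (MonoidAlgebra (KM M) G ⧸ J) f))) :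
    (Ce P).relIndex (Nf P E) ≤ blockRank p B := by
  haveI : IsAlgClosed (KM M) := isAlgClosed_KM M
  set Q := Subgroup.zpowers u with hQ
  have hu1 : u ≠ 1 := by
    rintro rfl
    rw [orderOf_one] at huo
    exact hp.out.one_lt.ne huo
  have hQ1 : Q ≠ ⊥ := by
    rw [hQ, Ne, Subgroup.zpowers_eq_bot]; exact hu1
  have hQP : Q ≤ P := hle.le
  obtain ⟨b, hb, hbf, -, hbr⟩ := rank_cent hM hP htop hc hle hQ1
  have hf := (hle.pair hP.pg hP.be).2
  have hPC : P ≤ Ce Q := fun x hx => Subgroup.mem_centralizer_iff.2 fun y hy => cyc_comm hc y (hQP hy) x hx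
  have hCH : Ce Q ≤ Nf Q f := Ce_le_Nf hf
  have hbp := hP.down hle
  rw [← relIdx hM hP htop hc hle hQ1]
  -- the homomorphism to units
  let μ : Nf Q f →* (ZMod p)ˣ := (Cfsg.Agent.H9.BrMain.om huo).comp (Subgroup.inclusion (inf_le_left : Nf Q f ≤ Nm Q))
  have hμ : μ.ker = (Ce Q).subgroupOf (Nf Q f) := by
    ext x
    have h1 := Cfsg.Agent.H9.BrMain.ker_om huo
    rw [MonoidHom.mem_ker, MonoidHom.comp_apply, ← MonoidHom.mem_ker, h1]
    rfl
  obtain ⟨ι, _, w, hcard, hw, hwne, h₀, hh₀, hgen⟩ := exists_weights (k := KM M) μ hμ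
  rw [← hcard]
  have hcomm : ∀ a : MonoidAlgebra (KM M) G, a * epG M B = epG M B * a := by
    intro a
    exact (comm_of (H := ⊤) hP.bB.mem.2 (fun x _ => Subgroup.mem_top x)).symm
  obtain ⟨J, hJs, hJB, hJn⟩ := family (p := p) (B := epG M B) (f := f) (a := a) (z := z) hcomm hP.bB.idem huo
    (H := Nf Q f) (D := P) (N := Nm Q) (hCH (hPC huP)) hCH (by
      intro h hh c hc'
      have h1 := norm_le_norm_Ce Q hh.1
      exact (Subgroup.mem_normalizer_iff.1 h1 c).1 hc') (by
      intro h hh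
      have h1 : h * u * h⁻¹ ∈ Q := (Subgroup.mem_normalizer_iff.1 hh.1 u).1 (Subgroup.mem_zpowers u)
      rw [hQ, ← mem_powers_iff_mem_zpowers] at h1
      obtain ⟨n, hn⟩ := h1
      exact ⟨n, hn.symm⟩) hf.mem.1 fix_Nf hf.idem hf.ne hbp.tr (hPC.trans hCH) inf_le_left haP hfa
    (by
      intro g hg hgn
      have h1 : IsBlk (Ce Q) (KG.cnj g f) := by
        have := hf.cnj_of_normalizes (norm_le_norm_Ce Q hg)
        exact this
      exact hf.orth h1 fun h => hgn ⟨hg, h.symm⟩)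
    (fun g hg d hd hgd => cyc_ti hP.pg hc huP huo hg hd hgd) hz hn hss
    (by
      intro Y Y' hY hY' h1 h2
      rw [← hbf] at h1 h2
      exact uniq_simple hM hb hbr hY hY' h1 h2) hh₀ hgen w hw hwne
  haveI := hJs
  haveI : ∀ i, FiniteDimensional (KM M) (MonoidAlgebra (KM M) G ⧸ J i) := fun i =>
    Module.Finite.of_surjective ((Submodule.mkQ (J i)).restrictScalars (KM M)) (Submodule.mkQ_surjective _)
  haveI : ∀ i, Nontrivial (MonoidAlgebra (KM M) G ⧸ J i) := fun i =>
    IsSimpleModule.nontrivial (MonoidAlgebra (KM M) G) _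
  have hck : ∀ (J : Submodule (MonoidAlgebra (KM M) G) (MonoidAlgebra (KM M) G)) (c : KM M)
      (s : MonoidAlgebra (KM M) G ⧸ J), c • s = (c • (1 : MonoidAlgebra (KM M) G)) • s := by
    intro J c s
    rw [smul_assoc, one_smul]
  refine card_simple_le (p := p) hM hB (fun i => MonoidAlgebra (KM M) G ⧸ J i) (fun i => rep (k := KM M) _) ?_ ?_ ?_
  · intro i U hU
    let U' : Submodule (MonoidAlgebra (KM M) G) (MonoidAlgebra (KM M) G ⧸ J i) :=
      { carrier := U
        add_mem' := U.add_mem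
        zero_mem' := U.zero_mem
        smul_mem' := fun a s hs => by
          rw [smul_eq_sum]
          exact U.sum_mem fun g _ => U.smul_mem _ (hU g s hs) }
    rcases eq_bot_or_eq_top U' with h1 | h1
    · left
      rw [Submodule.eq_bot_iff]
      intro s hs
      have : s ∈ U' := hs
      rw [h1] at this
      exact (Submodule.mem_bot _).1 this
    · right
      rw [Submodule.eq_top_iff']
      intro s
      have : s ∈ U' := by rw [h1]; trivial
      exact this
  · intro i j hij φ hφ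
    refine (hJn i j hij).false ?_
    refine { φ.toAddEquiv with map_smul' := ?_ }
    intro a s
    show φ (a • s) = a • φ s
    rw [smul_eq_sum a s, smul_eq_sum a (φ s), map_sum]
    refine Finset.sum_congr rfl fun g _ => ?_
    rw [map_smul]
    congr 1
    exact hφ g s
  · intro i s
    have h1 := hJB i s
    rw [smul_eq_sum] at h1
    exact h1

end main

end Cfsg.Agent.H25.Cyg
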