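import Mathlib
import Cfsg.Agent.H9_BrComb

/-!
H25_Cyh: the arithmetic of a cyclic defect group: multiplicity vectors and their Gram matrix.
-/

set_option autoImplicit false
set_option linter.unusedSectionVars false

open scoped ComplexConjugate

namespace Cfsg.Agent.H25.Cyh

section fourier

variable {q : ℕ} [NeZero q]

/-- the standard additive character -/
noncomputable def ee (a : ZMod q) : ℂ := ZMod.stdAddChar a

theorem ee_add (a b : ZMod q) : ee (a + b) = ee a * ee b := AddChar.map_add_eq_mul _ _ _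

theorem ee_zero : ee (0 : ZMod q) = 1 := AddChar.map_zero_eq_one _

theorem ee_conj (a : ZMod q) : conj (ee a) = ee (-a) := by
  unfold ee
  rw [AddChar.map_neg_eq_conj]

theorem sum_ee (a : ZMod q) : ∑ i : ZMod q, ee (a * i) = if a = 0 then (q : ℂ) else 0 := by
  have h1 := AddChar.sum_mulShift (R' := ℂ) a (ZMod.isPrimitive_stdAddChar q)
  rw [ZMod.card] at h1
  have h2 : ∑ i : ZMod q, ee (a * i) = ((if a = 0 then q else 0 : ℕ) : ℂ) := by
    rw [← h1]
    refine Finset.sum_congr rfl fun i _ => ?_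
    unfold ee; rw [mul_comm]
  rw [h2]
  split_ifs <;> simp

theorem q_ne : (q : ℂ) ≠ 0 := Nat.cast_ne_zero.2 (NeZero.ne q)

variable {α : Type*} (mu : α → ZMod q → ℕ)

/-- the generalized decomposition numbers -/
noncomputable def dd (χ : α) (i : ZMod q) : ℂ := ∑ a : ZMod q, (mu χ a : ℂ) * ee (a * i)

theorem mu_eq (χ : α) (a : ZMod q) :
    (mu χ a : ℂ) = (q : ℂ)⁻¹ * ∑ i : ZMod q, dd mu χ i * ee (-(a * i)) := by
  have h1 : ∑ i : ZMod q, dd mu χ i * ee (-(a * i)) =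
      ∑ b : ZMod q, (mu χ b : ℂ) * ∑ i : ZMod q, ee ((b - a) * i) := by
    unfold dd
    simp only [Finset.mul_sum, Finset.sum_mul]
    rw [Finset.sum_comm]
    refine Finset.sum_congr rfl fun i _ => Finset.sum_congr rfl fun b _ => ?_
    rw [mul_assoc, ← ee_add]; congr 2; ring
  rw [h1]
  have h2 : ∀ b : ZMod q, (mu χ b : ℂ) * ∑ i : ZMod q, ee ((b - a) * i) = if b = a then (mu χ b : ℂ) * q else 0 := by
    intro b
    rw [sum_ee]
    by_cases h : b = a
    · rw [if_pos h, if_pos (by rw [h, sub_self])]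
    · rw [if_neg h, if_neg (fun h' => h (sub_eq_zero.1 h')), mul_zero]
  rw [Finset.sum_congr rfl fun b _ => h2 b, Finset.sum_ite_eq' Finset.univ a, if_pos (Finset.mem_univ _)]
  field_simp [q_ne (q := q)]

/-- the multiplicity differences -/
def vv (χ : α) (a : ZMod q) : ℤ := mu χ 0 - mu χ a

theorem vv_zero (χ : α) : vv mu χ 0 = 0 := by unfold vv; ring

theorem vv_eq (χ : α) (a : ZMod q) :
    (vv mu χ a : ℂ) = (q : ℂ)⁻¹ * ∑ i : ZMod q, dd mu χ i * (1 - ee (-(a * i))) := by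
  unfold vv
  push_cast
  rw [mu_eq, mu_eq, ← mul_sub, ← Finset.sum_sub_distrib]
  congr 1
  refine Finset.sum_congr rfl fun i _ => ?_
  rw [zero_mul, neg_zero, ee_zero]; ring

theorem dd_eq_vv (χ : α) {j : ZMod q} (hj : j ≠ 0) :
    dd mu χ j = - ∑ a : ZMod q, (vv mu χ a : ℂ) * ee (a * j) := by
  have h1 : ∀ a : ZMod q, (mu χ a : ℂ) * ee (a * j) =
      (mu χ 0 : ℂ) * ee (j * a) - (vv mu χ a : ℂ) * ee (a * j) := by
    intro a
    unfold vv
    push_cast
    rw [mul_comm j a]; ring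
  unfold dd
  rw [Finset.sum_congr rfl fun a _ => h1 a, Finset.sum_sub_distrib, ← Finset.mul_sum, sum_ee, if_neg hj]
  ring

theorem mu_mul (χ : α) (h : (ZMod q)ˣ) (hh : ∀ i : ZMod q, dd mu χ ((h : ZMod q) * i) = dd mu χ i) (a : ZMod q) :
    mu χ ((h : ZMod q) * a) = mu χ a := by
  have h1 : (mu χ ((h : ZMod q) * a) : ℂ) = mu χ a := by
    rw [mu_eq, mu_eq]
    congr 1
    refine Fintype.sum_equiv (Units.mulLeft h) _ _ fun i => ?_
    rw [Units.mulLeft_apply, hh]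
    congr 2; ring
  exact_mod_cast h1

theorem vv_mul (χ : α) (h : (ZMod q)ˣ) (hh : ∀ i : ZMod q, i ≠ 0 → dd mu χ ((h : ZMod q) * i) = dd mu χ i)
    (a : ZMod q) : vv mu χ ((h : ZMod q) * a) = vv mu χ a := by
  have hh' : ∀ i : ZMod q, dd mu χ ((h : ZMod q) * i) = dd mu χ i := by
    intro i
    by_cases hi : i = 0
    · rw [hi, mul_zero]
    · exact hh i hi
  unfold vv
  rw [mu_mul mu χ h hh']

/-- nonexceptional rows -/
theorem dd_const (χ : α) {d : ℤ} (h : ∀ a : ZMod q, a ≠ 0 → vv mu χ a = d) {j : ZMod q} (hj : j ≠ 0) :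
    dd mu χ j = d := by
  rw [dd_eq_vv mu χ hj]
  have h1 : ∀ a : ZMod q, (vv mu χ a : ℂ) * ee (a * j) = (d : ℂ) * ee (j * a) - if a = 0 then (d : ℂ) else 0 := by
    intro a
    by_cases ha : a = 0
    · rw [ha, vv_zero, if_pos rfl]; simp [ee_zero]
    · rw [h a ha, if_neg ha, mul_comm a j]; ring
  rw [Finset.sum_congr rfl fun a _ => h1 a, Finset.sum_sub_distrib, ← Finset.mul_sum, sum_ee, if_neg hj,
    Finset.sum_ite_eq' Finset.univ (0 : ZMod q), if_pos (Finset.mem_univ _)]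
  ring

open Classical in
/-- the Gram matrix -/
theorem gram (S : Finset α) (H : Subgroup (ZMod q)ˣ)
    (hfree : ∀ h ∈ H, ∀ i : ZMod q, i ≠ 0 → (h : ZMod q) * i = i → h = 1)
    (hK : ∀ i j : ZMod q, i ≠ 0 → j ≠ 0 → ∑ χ ∈ S, dd mu χ i * conj (dd mu χ j) =
      if (∃ h ∈ H, j = (h : ZMod q) * i) then (q : ℂ) else 0) {a b : ZMod q} (ha : a ≠ 0) (hb : b ≠ 0) :
    ∑ χ ∈ S, vv mu χ a * vv mu χ b = (Nat.card H : ℤ) + if (∃ h ∈ H, a = (h : ZMod q) * b) then 1 else 0 := by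
  haveI : Fintype H := Fintype.ofFinite _
  have hinj : ∀ h ∈ H, ∀ h' ∈ H, ∀ i : ZMod q, i ≠ 0 → (h : ZMod q) * i = (h' : ZMod q) * i → h = h' := by
    intro h hh h' hh' i hi heq
    have h1 : ((h'⁻¹ * h : (ZMod q)ˣ) : ZMod q) * i = i := by
      rw [Units.val_mul, mul_assoc, heq, ← mul_assoc, Units.inv_mul, one_mul]
    have h2 := hfree _ (mul_mem (inv_mem hh') hh) i hi h1
    rwa [inv_mul_eq_one, eq_comm] at h2
  have h0 : ((∑ χ ∈ S, vv mu χ a * vv mu χ b : ℤ) : ℂ) =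
      (q : ℂ)⁻¹ * ((q : ℂ)⁻¹ * ∑ i : ZMod q, ∑ j : ZMod q, (1 - ee (-(a * i))) * (1 - ee (b * j)) *
        ∑ χ ∈ S, dd mu χ i * conj (dd mu χ j)) := by
    push_cast
    have h1 : ∀ χ ∈ S, (vv mu χ a : ℂ) * (vv mu χ b : ℂ) = (q : ℂ)⁻¹ * ((q : ℂ)⁻¹ *
        ∑ i : ZMod q, ∑ j : ZMod q, (1 - ee (-(a * i))) * (1 - ee (b * j)) *
          (dd mu χ i * conj (dd mu χ j))) := by
      intro χ _
      have h2 : (vv mu χ b : ℂ) = conj (vv mu χ b : ℂ) := by rw [map_intCast]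
      rw [h2, vv_eq, vv_eq, map_mul, map_sum, map_inv₀, map_natCast]
      have h3 : ∀ j : ZMod q, conj (dd mu χ j * (1 - ee (-(b * j)))) =
          conj (dd mu χ j) * (1 - ee (b * j)) := by
        intro j
        rw [map_mul, map_sub, map_one, ee_conj, neg_neg]
      rw [Finset.sum_congr rfl fun j _ => h3 j]
      rw [mul_mul_mul_comm, Finset.sum_mul_sum, mul_assoc]
      congr 2
      refine Finset.sum_congr rfl fun i _ => Finset.sum_congr rfl fun j _ => ?_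
      ring
    rw [Finset.sum_congr rfl h1, ← Finset.mul_sum, ← Finset.mul_sum]
    congr 2
    rw [Finset.sum_comm]
    refine Finset.sum_congr rfl fun i _ => ?_
    rw [Finset.sum_comm]
    refine Finset.sum_congr rfl fun j _ => ?_
    rw [Finset.mul_sum]
  have h1 : ∀ i j : ZMod q, (1 - ee (-(a * i))) * (1 - ee (b * j)) *
        ∑ χ ∈ S, dd mu χ i * conj (dd mu χ j) =
      if (∃ h ∈ H, j = (h : ZMod q) * i) then (q : ℂ) * ((1 - ee (-(a * i))) * (1 - ee (b * j))) else 0 := by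
    intro i j
    by_cases hi : i = 0
    · subst hi
      rw [mul_zero, neg_zero, ee_zero]; simp
    · by_cases hj : j = 0
      · subst hj
        rw [mul_zero, ee_zero]; simp
      · rw [hK i j hi hj]
        split_ifs <;> ring
  have h2 : ∀ i : ZMod q, ∑ j : ZMod q, (if (∃ h ∈ H, j = (h : ZMod q) * i) then
      (q : ℂ) * ((1 - ee (-(a * i))) * (1 - ee (b * j))) else 0) =
      ∑ h : H, (q : ℂ) * ((1 - ee (-(a * i))) * (1 - ee (b * (((h : (ZMod q)ˣ) : ZMod q) * i)))) := by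
    intro i
    by_cases hi : i = 0
    · subst hi
      simp [ee_zero]
    · rw [← Finset.sum_filter]
      refine (Finset.sum_bij (fun (h : H) _ => ((h : (ZMod q)ˣ) : ZMod q) * i) ?_ ?_ ?_ ?_).symm
      · intro h _
        rw [Finset.mem_filter]
        exact ⟨Finset.mem_univ _, h, h.2, rfl⟩
      · intro h _ h' _ heq
        exact Subtype.ext (hinj h h.2 h' h'.2 i hi heq)
      · intro j hj
        rw [Finset.mem_filter] at hj
        obtain ⟨-, h, hh, rfl⟩ := hj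
        exact ⟨⟨h, hh⟩, Finset.mem_univ _, rfl⟩
      · intro h _; rfl
  simp only [h1, h2] at h0
  rw [Finset.sum_comm] at h0
  have h3 : ∀ h : H, ∑ i : ZMod q, (q : ℂ) * ((1 - ee (-(a * i))) *
      (1 - ee (b * (((h : (ZMod q)ˣ) : ZMod q) * i)))) =
      (q : ℂ) * (q * (1 + if a = ((h : (ZMod q)ˣ) : ZMod q) * b then 1 else 0)) := by
    intro h
    rw [← Finset.mul_sum]
    congr 1
    have h4 : ∀ i : ZMod q, (1 - ee (-(a * i))) * (1 - ee (b * (((h : (ZMod q)ˣ) : ZMod q) * i))) =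
        ee (0 * i) - ee ((-a) * i) - ee ((b * ((h : (ZMod q)ˣ) : ZMod q)) * i) +
          ee ((((h : (ZMod q)ˣ) : ZMod q) * b - a) * i) := by
      intro i
      have e1 : ee ((((h : (ZMod q)ˣ) : ZMod q) * b - a) * i) = ee (-(a * i)) * ee (b * (((h : (ZMod q)ˣ) : ZMod q) * i)) := by
        rw [← ee_add]; congr 1; ring
      rw [e1, zero_mul, ee_zero, neg_mul, mul_assoc b]
      ring
    have hbh : b * ((h : (ZMod q)ˣ) : ZMod q) ≠ 0 := by
      intro h0'
      apply hb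
      have := congrArg (· * (((h : (ZMod q)ˣ)⁻¹ : (ZMod q)ˣ) : ZMod q)) h0'
      simpa [mul_assoc] using this
    rw [Finset.sum_congr rfl fun i _ => h4 i, Finset.sum_add_distrib, Finset.sum_sub_distrib,
      Finset.sum_sub_distrib, sum_ee, sum_ee, sum_ee, sum_ee, if_pos rfl, if_neg (neg_ne_zero.2 ha),
      if_neg hbh]
    by_cases hab : a = ((h : (ZMod q)ˣ) : ZMod q) * b
    · rw [if_pos (by rw [hab, sub_self]), if_pos hab]; ring
    · rw [if_neg (fun h' => hab (sub_eq_zero.1 h').symm), if_neg hab]; ring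
  rw [Finset.sum_congr rfl fun h _ => h3 h, ← Finset.mul_sum, ← Finset.mul_sum,
    Finset.sum_add_distrib, Finset.sum_const, Finset.card_univ] at h0
  have h5 : ∑ h : H, (if a = (((h : (ZMod q)ˣ) : ZMod q)) * b then (1:ℂ) else 0) =
      if (∃ h ∈ H, a = (h : ZMod q) * b) then 1 else 0 := by
    split_ifs with hex
    · obtain ⟨h, hh, rfl⟩ := hex
      rw [Finset.sum_eq_single ⟨h, hh⟩]
      · rw [if_pos rfl]
      · intro h' _ hne
        rw [if_neg]
        intro heq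
        exact hne (Subtype.ext (hinj h hh h' h'.2 b hb heq).symm)
      · intro h; exact absurd (Finset.mem_univ _) h
    · apply Finset.sum_eq_zero
      intro h _
      rw [if_neg (fun h' => hex ⟨h, h.2, h'⟩)]
  rw [h5] at h0
  have h6 : ((∑ χ ∈ S, vv mu χ a * vv mu χ b : ℤ) : ℂ) =
      (((Nat.card H : ℤ) + if (∃ h ∈ H, a = (h : ZMod q) * b) then 1 else 0 : ℤ) : ℂ) := by
    rw [h0, Nat.card_eq_fintype_card]
    have hp0 := q_ne (q := q)
    push_cast
    rw [nsmul_eq_mul, mul_one]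
    field_simp
  exact_mod_cast h6

end fourier

section orbits

variable {q : ℕ} [NeZero q] (H : Subgroup (ZMod q)ˣ)

/-- `H` acts on the nonzero residues -/
@[reducible] def nzAct : MulAction H {x : ZMod q // x ≠ 0} where
  smul h x := ⟨((h : (ZMod q)ˣ) : ZMod q) * x.1, fun h0 => x.2 (by
    have := congrArg ((((h : (ZMod q)ˣ)⁻¹ : (ZMod q)ˣ) : ZMod q) * ·) h0
    simpa using this)⟩
  one_smul x := Subtype.ext (by
    show (((1 : H) : (ZMod q)ˣ) : ZMod q) * x.1 = x.1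
    rw [Subgroup.coe_one, Units.val_one, one_mul])
  mul_smul h h' x := Subtype.ext (by
    show (((h * h' : H) : (ZMod q)ˣ) : ZMod q) * x.1 = ((h : (ZMod q)ˣ) : ZMod q) * (((h' : (ZMod q)ˣ) : ZMod q) * x.1)
    rw [Subgroup.coe_mul, Units.val_mul, mul_assoc])

/-- the orbits of nonzero residues -/
def Orb : Type := letI := nzAct H; MulAction.orbitRel.Quotient H {x : ZMod q // x ≠ 0}

instance : Finite (Orb H) := by
  unfold Orb MulAction.orbitRel.Quotient
  infer_instance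

/-- the orbit of a nonzero residue -/
def om (x : {x : ZMod q // x ≠ 0}) : Orb H := letI := nzAct H; Quotient.mk (MulAction.orbitRel H _) x

/-- a representative -/
noncomputable def rp (o : Orb H) : {x : ZMod q // x ≠ 0} := letI := nzAct H; Quotient.out (s := MulAction.orbitRel H _) o

theorem om_rp (o : Orb H) : om H (rp H o) = o := by
  letI := nzAct H
  exact Quotient.out_eq (s := MulAction.orbitRel H _) o

theorem om_eq {x y : {x : ZMod q // x ≠ 0}} : om H x = om H y ↔ ∃ h ∈ H, x.1 = (h : ZMod q) * y.1 := by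
  letI := nzAct H
  have h1 : om H x = om H y ↔ (MulAction.orbitRel H {x : ZMod q // x ≠ 0}) x y :=
    Quotient.eq (r := MulAction.orbitRel H _)
  rw [h1, MulAction.orbitRel_apply, MulAction.mem_orbit_iff]
  constructor
  · rintro ⟨h, hh⟩
    exact ⟨h, h.2, (congrArg Subtype.val hh).symm⟩
  · rintro ⟨h, hh, heq⟩
    exact ⟨⟨h, hh⟩, Subtype.ext heq.symm⟩

theorem card_orb (hfree : ∀ h ∈ H, ∀ i : ZMod q, i ≠ 0 → (h : ZMod q) * i = i → h = 1) :
    Nat.card H * Nat.card (Orb H) = q - 1 := by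
  letI := nzAct H
  have h1 : ∀ b : {x : ZMod q // x ≠ 0}, MulAction.stabilizer H b = ⊥ := by
    intro b
    rw [eq_bot_iff]
    intro h hh
    rw [MulAction.mem_stabilizer_iff] at hh
    rw [Subgroup.mem_bot]
    exact Subtype.ext (hfree h h.2 b.1 b.2 (congrArg Subtype.val hh))
  have h2 := Nat.card_congr (MulAction.selfEquivOrbitsQuotientProd h1)
  rw [Nat.card_prod] at h2
  have h3 : Nat.card {x : ZMod q // x ≠ 0} = q - 1 := by
    rw [Nat.card_eq_fintype_card, Fintype.card_subtype_compl, ZMod.card]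
    simp
  rw [h3] at h2
  rw [mul_comm]
  exact h2.symm

theorem coset_count (hfree : ∀ h ∈ H, ∀ i : ZMod q, i ≠ 0 → (h : ZMod q) * i = i → h = 1) (o : Orb H) :
    Nat.card {x : {x : ZMod q // x ≠ 0} // om H x = o} = Nat.card H := by
  refine (Nat.card_eq_of_bijective (fun h : H => (⟨⟨((h : (ZMod q)ˣ) : ZMod q) * (rp H o).1, fun h0 => (rp H o).2 (by
    have := congrArg ((((h : (ZMod q)ˣ)⁻¹ : (ZMod q)ˣ) : ZMod q) * ·) h0
    simpa using this)⟩, by
      conv_rhs => rw [← om_rp H o]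
      rw [om_eq]
      exact ⟨h, h.2, rfl⟩⟩ : {x : {x : ZMod q // x ≠ 0} // om H x = o})) ?_).symm
  constructor
  · intro h h' heq
    have h1 : ((h : (ZMod q)ˣ) : ZMod q) * (rp H o).1 = ((h' : (ZMod q)ˣ) : ZMod q) * (rp H o).1 :=
      congrArg (fun z : {x : {x : ZMod q // x ≠ 0} // om H x = o} => z.1.1) heq
    have h2 : ((((h' : (ZMod q)ˣ)⁻¹ * (h : (ZMod q)ˣ) : (ZMod q)ˣ)) : ZMod q) * (rp H o).1 = (rp H o).1 := by
      rw [Units.val_mul, mul_assoc, h1, ← mul_assoc, Units.inv_mul, one_mul]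
    have h3 := hfree _ (mul_mem (inv_mem h'.2) h.2) _ (rp H o).2 h2
    rw [inv_mul_eq_one] at h3
    exact Subtype.ext h3.symm
  · rintro ⟨x, hx⟩
    have h1 : om H x = om H (rp H o) := by rw [hx, om_rp]
    obtain ⟨h, hh, heq⟩ := (om_eq H).1 h1
    exact ⟨⟨h, hh⟩, Subtype.ext (Subtype.ext heq.symm)⟩

end orbits

section main

variable {q : ℕ} [NeZero q] {α : Type*} [DecidableEq α] (mu : α → ZMod q → ℕ)

/-- the structure theorem -/
theorem structure_thm (S : Finset α) (H : Subgroup (ZMod q)ˣ) (hq : 1 < q)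
    (hfree : ∀ h ∈ H, ∀ i : ZMod q, i ≠ 0 → (h : ZMod q) * i = i → h = 1)
    (hK : ∀ i j : ZMod q, i ≠ 0 → j ≠ 0 → ((∃ h ∈ H, j = (h : ZMod q) * i) →
      ∑ χ ∈ S, dd mu χ i * conj (dd mu χ j) = (q : ℂ)) ∧ ((¬ ∃ h ∈ H, j = (h : ZMod q) * i) →
      ∑ χ ∈ S, dd mu χ i * conj (dd mu χ j) = 0))
    (hinv : ∀ χ ∈ S, ∀ h ∈ H, ∀ i : ZMod q, i ≠ 0 → dd mu χ ((h : ZMod q) * i) = dd mu χ i)
    (hne : ∀ χ ∈ S, ∃ a : ZMod q, vv mu χ a ≠ 0)
    (hcard : Nat.card H + Nat.card (Orb H) ≤ S.card) :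
    ∃ (X Y : Finset α) (δ : α → ℤ) (L : Orb H → α) (s : Orb H → ℤ),
      X ∪ Y = S ∧ Disjoint X Y ∧ X.card = Nat.card H ∧ Y.card = Nat.card (Orb H) ∧
      (∀ χ ∈ X, (δ χ = 1 ∨ δ χ = -1) ∧ ∀ a : ZMod q, a ≠ 0 → vv mu χ a = δ χ) ∧
      Function.Injective L ∧ (∀ χ, χ ∈ Y ↔ ∃ o, L o = χ) ∧ (∀ o, s o = 1 ∨ s o = -1) ∧
      (∀ o (x : {x : ZMod q // x ≠ 0}), om H x = o → vv mu (L o) x.1 = s o) ∧
      (∀ o (x : {x : ZMod q // x ≠ 0}), om H x ≠ o → vv mu (L o) x.1 = 0) := by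
  classical
  haveI : Fintype (Orb H) := Fintype.ofFinite _
  have hK' : ∀ i j : ZMod q, i ≠ 0 → j ≠ 0 → ∑ χ ∈ S, dd mu χ i * conj (dd mu χ j) =
      if (∃ h ∈ H, j = (h : ZMod q) * i) then (q : ℂ) else 0 := by
    intro i j hi hj
    split_ifs with h
    · exact (hK i j hi hj).1 h
    · exact (hK i j hi hj).2 h
  have hgr : ∀ i j : Orb H, ∑ χ ∈ S, vv mu χ (rp H i).1 * vv mu χ (rp H j).1 =
      (Nat.card H : ℤ) + if i = j then 1 else 0 := by
    intro i j
    rw [gram mu S H hfree hK' (rp H i).2 (rp H j).2]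
    congr 1
    by_cases hij : i = j
    · rw [if_pos hij, if_pos]
      rw [← om_eq, om_rp, om_rp]; exact hij
    · rw [if_neg hij, if_neg]
      rw [← om_eq, om_rp, om_rp]; exact hij
  have hout : ∀ χ ∈ S, ∀ x : {x : ZMod q // x ≠ 0}, vv mu χ x.1 = vv mu χ (rp H (om H x)).1 := by
    intro χ hχ x
    have h1 : om H x = om H (rp H (om H x)) := by rw [om_rp]
    obtain ⟨h, hh, heq⟩ := (om_eq H).1 h1
    rw [heq]
    exact vv_mul mu χ h (fun i hi => hinv χ hχ h hh i hi) _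
  haveI : Nontrivial (ZMod q) := by
    haveI : Fact (1 < q) := ⟨hq⟩
    infer_instance
  haveI : Nonempty (Orb H) := ⟨om H ⟨1, one_ne_zero⟩⟩
  have hne' : ∀ χ ∈ S, ∃ j, vv mu χ (rp H j).1 ≠ 0 := by
    intro χ hχ
    obtain ⟨a, ha⟩ := hne χ hχ
    have ha0 : a ≠ 0 := fun h0 => ha (by rw [h0, vv_zero])
    exact ⟨om H ⟨a, ha0⟩, by rw [← hout χ hχ ⟨a, ha0⟩]; exact ha⟩
  have he1 : 1 ≤ Nat.card H := Nat.card_pos
  -- a constant row
  obtain ⟨x0, hx0, hx0c⟩ : ∃ x0 ∈ S, ∀ i j : Orb H, vv mu x0 (rp H i).1 = vv mu x0 (rp H j).1 := by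
    by_contra hcon
    push Not at hcon
    have h1 : ∀ χ ∈ S, 2 * ((Fintype.card (Orb H) : ℤ) - 1) ≤
        ∑ i, ∑ j, (vv mu χ (rp H i).1 - vv mu χ (rp H j).1) ^ 2 := fun χ hχ =>
      Cfsg.Agent.H9.BrComb.nonconst_ge (fun j => vv mu χ (rp H j).1) (hcon χ hχ)
    have h2 := Finset.sum_le_sum h1
    rw [Finset.sum_const] at h2
    have h3 : ∑ χ ∈ S, ∑ i, ∑ j, (vv mu χ (rp H i).1 - vv mu χ (rp H j).1) ^ 2 =
        ∑ i : Orb H, ∑ j : Orb H, if i = j then (0 : ℤ) else 2 := by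
      rw [Finset.sum_comm]
      refine Finset.sum_congr rfl fun i _ => ?_
      rw [Finset.sum_comm]
      refine Finset.sum_congr rfl fun j _ => ?_
      have h4 : ∑ χ ∈ S, (vv mu χ (rp H i).1 - vv mu χ (rp H j).1) ^ 2 =
          ∑ χ ∈ S, vv mu χ (rp H i).1 * vv mu χ (rp H i).1 + ∑ χ ∈ S, vv mu χ (rp H j).1 * vv mu χ (rp H j).1
            - 2 * ∑ χ ∈ S, vv mu χ (rp H i).1 * vv mu χ (rp H j).1 := by
        rw [Finset.mul_sum, ← Finset.sum_add_distrib, ← Finset.sum_sub_distrib]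
        refine Finset.sum_congr rfl fun χ _ => by ring
      rw [h4, hgr, hgr, hgr, if_pos rfl, if_pos rfl]
      split_ifs <;> ring
    have h4 : ∑ i : Orb H, ∑ j : Orb H, (if i = j then (0 : ℤ) else 2) =
        2 * (Fintype.card (Orb H) : ℤ) * ((Fintype.card (Orb H) : ℤ) - 1) := by
      have h5 : ∀ i : Orb H, ∑ j : Orb H, (if i = j then (0 : ℤ) else 2) = 2 * ((Fintype.card (Orb H) : ℤ) - 1) := by
        intro i
        have h6 : ∀ j : Orb H, (if i = j then (0 : ℤ) else 2) = 2 - if i = j then 2 else 0 := by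
          intro j; split_ifs <;> ring
        rw [Finset.sum_congr rfl fun j _ => h6 j, Finset.sum_sub_distrib, Finset.sum_const, Finset.card_univ,
          Finset.sum_ite_eq Finset.univ i, if_pos (Finset.mem_univ _)]
        simp; ring
      rw [Finset.sum_congr rfl fun i _ => h5 i, Finset.sum_const, Finset.card_univ]
      simp; ring
    rw [h3, h4, nsmul_eq_mul] at h2
    have hc : (Nat.card H : ℤ) + (Fintype.card (Orb H) : ℤ) ≤ S.card := by
      rw [Nat.card_eq_fintype_card (α := Orb H)] at hcard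
      exact_mod_cast hcard
    have hSne : S.Nonempty := by
      rw [← Finset.card_pos]
      have := Nat.card_pos (α := H)
      omega
    obtain ⟨χ, hχ⟩ := hSne
    obtain ⟨i, j, hij⟩ := hcon χ hχ
    have hij' : i ≠ j := fun h => hij (by rw [h])
    have hJ : 1 < Fintype.card (Orb H) := Fintype.one_lt_card_iff.2 ⟨i, j, hij'⟩
    have hJ' : (1 : ℤ) < Fintype.card (Orb H) := by exact_mod_cast hJ
    have he1' : (1 : ℤ) ≤ Nat.card H := by exact_mod_cast he1
    nlinarith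
  obtain ⟨X, Y, hXY, hdis, h1X, hXc, hYc, ⟨δ, hδ⟩, L, s, hLinj, hLY, hs, hL⟩ :=
    Cfsg.Agent.H9.BrComb.main S (fun χ (j : Orb H) => vv mu χ (rp H j).1)
      (Nat.card H) hgr hne' (by rw [← Nat.card_eq_fintype_card]; exact hcard) x0 hx0 hx0c he1
  have hXS : ∀ χ ∈ X, χ ∈ S := fun χ h => by rw [← hXY]; exact Finset.mem_union_left _ h
  have hYS : ∀ χ ∈ Y, χ ∈ S := fun χ h => by rw [← hXY]; exact Finset.mem_union_right _ h
  refine ⟨X, Y, δ, L, s, hXY, hdis, hXc, by rw [hYc, Nat.card_eq_fintype_card], ?_, hLinj, hLY, hs, ?_, ?_⟩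
  · intro χ hχ
    refine ⟨(hδ χ hχ).1, fun a ha => ?_⟩
    rw [hout χ (hXS χ hχ) ⟨a, ha⟩]
    exact (hδ χ hχ).2 _
  · intro o x hx
    rw [hout (L o) (hYS _ ((hLY _).2 ⟨o, rfl⟩)) x, hx]
    have := hL o o
    rwa [if_pos rfl] at this
  · intro o x hx
    rw [hout (L o) (hYS _ ((hLY _).2 ⟨o, rfl⟩)) x]
    have := hL (om H x) o
    rwa [if_neg hx] at this

end main

end Cfsg.Agent.H25.Cyh
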