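import Mathlib
import Cfsg.Agent.H25_Cyh
import Cfsg.Agent.H25_Cyg
import Cfsg.Agent.H25_STr
import Cfsg.Agent.H9_BrMain

/-!
H25_Cyi: column orthogonality for the sections of a block with cyclic defect group.
-/

set_option autoImplicit false
set_option linter.unusedSectionVars false

open scoped ComplexConjugate

namespace Cfsg.Agent.H25.Cyi

open Cfsg Cfsg.Agent.H3.CharIrr Cfsg.Agent.H3.CharComplete Cfsg.Agent.H3.CharBasic
  Cfsg.Agent.H10.BlockLoc Cfsg.Agent.H10.Char Cfsg.Agent.H10.PPart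
  Cfsg.Agent.H25.IndCong Cfsg.Agent.H25.Sub Cfsg.Agent.H25.Sub2 Cfsg.Agent.H25.Cyh

section orth

variable {G : Type*} [Group G] [Fintype G] {p : ℕ} [hp : Fact p.Prime]

open Classical in
theorem orth2_count [Fintype (IrrCharacter G)] (g h : G) :
    ∑ χ : IrrCharacter G, (χ : G → ℂ) g * conj ((χ : G → ℂ) h) = ∑ t : G, if t * g * t⁻¹ = h then (1 : ℂ) else 0 := by
  rw [orth2]
  rw [← Finset.sum_filter, Finset.sum_const, nsmul_eq_mul, mul_one]
  split_ifs with hc
  · obtain ⟨t0, ht0⟩ := isConj_iff.1 hc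
    congr 1
    rw [Nat.card_eq_fintype_card, ← Finset.card_univ]
    refine Finset.card_bij (fun (c : Subgroup.centralizer ({g} : Set G)) _ => t0 * (c : G)) ?_ ?_ ?_
    · intro c _
      rw [Finset.mem_filter]
      refine ⟨Finset.mem_univ _, ?_⟩
      have h1 : (c : G) * g = g * c := (Subgroup.mem_centralizer_iff.1 c.2 g (Set.mem_singleton g)).symm
      rw [← ht0, mul_inv_rev]
      calc t0 * (c : G) * g * ((c : G)⁻¹ * t0⁻¹) = t0 * ((c : G) * g) * (c : G)⁻¹ * t0⁻¹ := by group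
        _ = t0 * g * t0⁻¹ := by rw [h1]; group
    · intro a _ b _ hab
      exact Subtype.ext (mul_left_cancel hab)
    · intro t ht
      rw [Finset.mem_filter] at ht
      refine ⟨⟨t0⁻¹ * t, ?_⟩, Finset.mem_univ _, by simp⟩
      rw [Subgroup.mem_centralizer_iff]
      intro y hy
      rw [Set.mem_singleton_iff.1 hy]
      have h2 : t * g * t⁻¹ = t0 * g * t0⁻¹ := by rw [ht.2, ht0]
      have h3 : t * g = t0 * g * t0⁻¹ * t := by rw [← h2]; group
      calc g * (t0⁻¹ * t) = t0⁻¹ * (t0 * g * t0⁻¹ * t) := by group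
        _ = t0⁻¹ * (t * g) := by rw [h3]
        _ = t0⁻¹ * t * g := by group
  · rw [Finset.card_eq_zero.2, Nat.cast_zero]
    rw [Finset.filter_eq_empty_iff]
    intro t _ ht
    exact hc (isConj_iff.2 ⟨t, ht⟩)

/-- the section integral -/
noncomputable def AA (x : G) (φ : G → ℂ) (χ : G → ℂ) : ℂ := ∑ y : G, χ (x * y) * conj (φ y)

open Classical in
theorem col_orth [Fintype (IrrCharacter G)] {x x' : G} (hx : ∃ k : ℕ, orderOf x = p ^ k)
    (hx' : ∃ k : ℕ, orderOf x' = p ^ k) {φ φ' : G → ℂ} (hφ : ∀ y, φ y ≠ 0 → ¬ p ∣ orderOf y ∧ Commute x y)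
    (hφ' : ∀ y, φ' y ≠ 0 → ¬ p ∣ orderOf y ∧ Commute x' y) :
    ∑ χ : IrrCharacter G, AA x φ (χ : G → ℂ) * conj (AA x' φ' (χ : G → ℂ)) =
      ∑ t : G, if t * x * t⁻¹ = x' then ∑ y : G, conj (φ y) * φ' (t * y * t⁻¹) else 0 := by
  have h1 : ∀ χ : IrrCharacter G, AA x φ (χ : G → ℂ) * conj (AA x' φ' (χ : G → ℂ)) =
      ∑ y : G, ∑ y' : G, (conj (φ y) * φ' y') * ((χ : G → ℂ) (x * y) * conj ((χ : G → ℂ) (x' * y'))) := by
    intro χ
    unfold AA
    rw [map_sum, Finset.sum_mul_sum]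
    refine Finset.sum_congr rfl fun y _ => Finset.sum_congr rfl fun y' _ => ?_
    rw [map_mul, Complex.conj_conj]; ring
  rw [Finset.sum_congr rfl fun χ _ => h1 χ, Finset.sum_comm]
  have h2 : ∀ y : G, ∑ χ : IrrCharacter G, ∑ y' : G, (conj (φ y) * φ' y') *
      ((χ : G → ℂ) (x * y) * conj ((χ : G → ℂ) (x' * y'))) =
      ∑ t : G, if t * x * t⁻¹ = x' then conj (φ y) * φ' (t * y * t⁻¹) else 0 := by
    intro y
    rw [Finset.sum_comm]
    have h3 : ∀ y' : G, ∑ χ : IrrCharacter G, (conj (φ y) * φ' y') *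
        ((χ : G → ℂ) (x * y) * conj ((χ : G → ℂ) (x' * y'))) =
        ∑ t : G, if t * x * t⁻¹ = x' ∧ t * y * t⁻¹ = y' then conj (φ y) * φ' y' else 0 := by
      intro y'
      rw [← Finset.mul_sum, orth2_count, Finset.mul_sum]
      refine Finset.sum_congr rfl fun t _ => ?_
      by_cases h0 : conj (φ y) * φ' y' = 0
      · rw [h0]; simp
      · have ha : φ y ≠ 0 := fun h => h0 (by rw [h, map_zero, zero_mul])
        have hb : φ' y' ≠ 0 := fun h => h0 (by rw [h, mul_zero])
        obtain ⟨hy1, hy2⟩ := hφ y ha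
        obtain ⟨hy1', hy2'⟩ := hφ' y' hb
        have hiff : t * (x * y) * t⁻¹ = x' * y' ↔ (t * x * t⁻¹ = x' ∧ t * y * t⁻¹ = y') := by
          constructor
          · intro h
            have h4 : (t * x * t⁻¹) * (t * y * t⁻¹) = x' * y' := by rw [← h]; group
            have hcm : Commute (t * x * t⁻¹) (t * y * t⁻¹) := by
              have := hy2.map (MulAut.conj t).toMonoidHom
              simpa [MulAut.conj_apply] using this
            exact parts_unique (p := p) h4 hcm hy2' (by rw [orderOf_conj]; exact hx) hx'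
              (by rw [orderOf_conj]; exact hy1) hy1'
          · rintro ⟨h4, h5⟩
            rw [← h4, ← h5]; group
        by_cases hc : t * (x * y) * t⁻¹ = x' * y'
        · rw [if_pos hc, if_pos (hiff.1 hc), mul_one]
        · rw [if_neg hc, if_neg (fun h => hc (hiff.2 h)), mul_zero]
    rw [Finset.sum_congr rfl fun y' _ => h3 y', Finset.sum_comm]
    refine Finset.sum_congr rfl fun t _ => ?_
    by_cases ht : t * x * t⁻¹ = x'
    · rw [if_pos ht, Finset.sum_eq_single (t * y * t⁻¹)]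
      · rw [if_pos ⟨ht, rfl⟩]
      · intro y' _ hne
        rw [if_neg (fun h => hne h.2.symm)]
      · intro h; exact absurd (Finset.mem_univ _) h
    · rw [if_neg ht]
      apply Finset.sum_eq_zero
      intro y' _
      rw [if_neg (fun h => ht h.1)]
  rw [Finset.sum_congr rfl fun y _ => h2 y, Finset.sum_comm]
  refine Finset.sum_congr rfl fun t _ => ?_
  by_cases ht : t * x * t⁻¹ = x'
  · rw [if_pos ht]
    refine Finset.sum_congr rfl fun y _ => ?_
    rw [if_pos ht]
  · rw [if_neg ht]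
    apply Finset.sum_eq_zero
    intro y _
    rw [if_neg ht]

end orth

end Cfsg.Agent.H25.Cyi
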