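import Mathlib
import Cfsg.Agent.H25_Cyi
import Cfsg.Agent.H10_AbChar

/-!
H25_Cyj: the block of the centralizer of a Sylow subgroup of prime order.
-/

set_option autoImplicit false
set_option linter.unusedSectionVars false

open scoped ComplexConjugate

namespace Cfsg.Agent.H25.Cyj

open Cfsg Cfsg.Agent.H3.CharIrr Cfsg.Agent.H3.CharComplete Cfsg.Agent.H3.CharBasic
  Cfsg.Agent.H10.BlockLoc Cfsg.Agent.H10.BlockAlg Cfsg.Agent.H10.BlockIdem Cfsg.Agent.H10.BlockDefect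
  Cfsg.Agent.H10.Char Cfsg.Agent.H10.PPart
  Cfsg.Agent.H25.IndCong Cfsg.Agent.H25.Sub Cfsg.Agent.H25.Sub2 Cfsg.Agent.H25.Cyh Cfsg.Agent.H25.Cyi
  Cfsg.Agent.H25.Red Cfsg.Agent.H25.KG Cfsg.Agent.H25.BPTr Cfsg.Agent.H25.BPMain Cfsg.Agent.H25.BPDef
  Cfsg.Agent.H25.Fus Cfsg.Agent.H25.Nilp Cfsg.Agent.H25.NilpAb Cfsg.Agent.H9.BrVec Cfsg.Agent.H9.BrMain

section struct

variable {G : Type*} [Group G] [Fintype G] {p : ℕ} [hp : Fact p.Prime] {u : G}

theorem pel_mem {P : Subgroup G} (hP : IsPGroup p P) (hidx : ¬ p ∣ P.index) {x : G}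
    (hx : ∃ k : ℕ, orderOf x = p ^ k) (hxP : x ∈ Ce P) : x ∈ P := by
  have hx' : IsPGroup p (Subgroup.zpowers x) := H10.BlockSMT2.zpowers_isPGroup hx
  have hn : Subgroup.zpowers x ≤ Subgroup.normalizer (P : Set G) := by
    rw [Subgroup.zpowers_le]
    exact Subgroup.centralizer_le_normalizer _ hxP
  have h1 : IsPGroup p (Subgroup.zpowers x ⊔ P : Subgroup G) := hx'.to_sup_of_normal_right' hP hn
  obtain ⟨k, hk⟩ := IsPGroup.iff_card.1 h1
  have h2 : P.relIndex (Subgroup.zpowers x ⊔ P) ∣ p ^ k := by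
    rw [← hk]; exact Subgroup.relIndex_dvd_card _ _
  have h3 : P.relIndex (Subgroup.zpowers x ⊔ P) ∣ P.index :=
    Subgroup.relIndex_dvd_index_of_le le_sup_right
  obtain ⟨j, -, hj⟩ := (Nat.dvd_prime_pow hp.out).1 h2
  have h4 : j = 0 := by
    by_contra h0
    exact hidx ((dvd_pow_self p h0).trans (hj ▸ h3))
  rw [h4, pow_zero, Subgroup.relIndex_eq_one] at hj
  exact hj ((le_sup_left : Subgroup.zpowers x ≤ Subgroup.zpowers x ⊔ P) (Subgroup.mem_zpowers x))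

theorem zp_pg (hu : orderOf u = p) : IsPGroup p (Subgroup.zpowers u) :=
  H10.BlockSMT2.zpowers_isPGroup ⟨1, by rw [hu, pow_one]⟩

theorem decomp (hu : orderOf u = p) (hidx : ¬ p ∣ (Subgroup.zpowers u).index) {c : G}
    (hc : c ∈ Ce (Subgroup.zpowers u)) :
    ∃ i : ZMod p, ∃ y ∈ Ce (Subgroup.zpowers u), ¬ p ∣ orderOf y ∧ c = zp p u i * y := by
  obtain ⟨x, y, hxy, hcm, hx, hy⟩ := exists_ppart (p := p) c
  have h1 : x ∈ Ce (Subgroup.zpowers u) := by
    have h2 := ppart_mem_zpowers' (⟨y, hxy, hcm, hx, hy⟩ : IsPPart p c x)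
    exact (Subgroup.zpowers_le.2 hc) h2
  have h2 := pel_mem (zp_pg hu) hidx hx h1
  obtain ⟨i, rfl⟩ := (mem_zpowers_iff hu x).1 h2
  refine ⟨i, y, ?_, hy, hxy.symm⟩
  have : y = (zp p u i)⁻¹ * c := by rw [← hxy]; group
  rw [this]
  exact mul_mem (inv_mem h1) hc

theorem zp_mem_Ce (i : ZMod p) : zp p u i ∈ Ce (Subgroup.zpowers u) := by
  unfold zp
  apply Subgroup.pow_mem
  rw [Subgroup.mem_centralizer_iff]
  rintro y ⟨k, rfl⟩
  exact ((Commute.refl u).zpow_left k).eq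

theorem zp_comm {c : G} (hc : c ∈ Ce (Subgroup.zpowers u)) (i : ZMod p) : Commute (zp p u i) c := by
  have := Subgroup.mem_centralizer_iff.1 hc (zp p u i) (by
    unfold zp; exact Subgroup.pow_mem _ (Subgroup.mem_zpowers u) _)
  exact this

theorem zp_ord (hu : orderOf u = p) (i : ZMod p) : ∃ k : ℕ, orderOf (zp p u i) = p ^ k := zp_order hu i

open Classical in
/-- splitting sums over the centralizer -/
theorem sumC (hu : orderOf u = p) (hidx : ¬ p ∣ (Subgroup.zpowers u).index) [Fintype (Ce (Subgroup.zpowers u))]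
    (F : G → ℂ) : ∑ c : Ce (Subgroup.zpowers u), F c =
      ∑ i : ZMod p, ∑ y : G, if y ∈ Ce (Subgroup.zpowers u) ∧ ¬ p ∣ orderOf y then F (zp p u i * y) else 0 := by
  have h1 : ∀ i : ZMod p, ∑ y : G, (if y ∈ Ce (Subgroup.zpowers u) ∧ ¬ p ∣ orderOf y then F (zp p u i * y) else 0) =
      ∑ y ∈ Finset.univ.filter (fun y : G => y ∈ Ce (Subgroup.zpowers u) ∧ ¬ p ∣ orderOf y), F (zp p u i * y) := by
    intro i; rw [Finset.sum_filter]
  rw [Finset.sum_congr rfl fun i _ => h1 i, ← Finset.sum_product']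
  symm
  refine Finset.sum_bij (fun (z : ZMod p × G) hz => (⟨zp p u z.1 * z.2, mul_mem (zp_mem_Ce z.1)
    (Finset.mem_filter.1 (Finset.mem_product.1 hz).2).2.1⟩ : Ce (Subgroup.zpowers u))) ?_ ?_ ?_ ?_
  · intro z _; exact Finset.mem_univ _
  · rintro ⟨i, y⟩ hz ⟨j, w⟩ hw heq
    have hy := (Finset.mem_filter.1 (Finset.mem_product.1 hz).2).2
    have hw' := (Finset.mem_filter.1 (Finset.mem_product.1 hw).2).2
    have h2 : zp p u i * y = zp p u j * w := congrArg Subtype.val heq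
    obtain ⟨h3, h4⟩ := parts_unique (p := p) h2 (zp_comm hy.1 i) (zp_comm hw'.1 j) (zp_ord hu i) (zp_ord hu j) hy.2 hw'.2
    exact Prod.ext (zp_injective hu h3) h4
  · rintro ⟨c, hc⟩ _
    obtain ⟨i, y, hy, hyr, rfl⟩ := decomp hu hidx hc
    exact ⟨(i, y), Finset.mem_product.2 ⟨Finset.mem_univ _, Finset.mem_filter.2 ⟨Finset.mem_univ _, hy, hyr⟩⟩, rfl⟩
  · intro z _; rfl

end struct

/-- the characters of the block, indexed by the characters of the cyclic group -/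
structure Fam {G : Type*} [Group G] (p : ℕ) [hp : Fact p.Prime] (u : G)
    (b : Set (IrrCharacter (Ce (Subgroup.zpowers u)))) (θ : ZMod p → IrrCharacter (Ce (Subgroup.zpowers u))) : Prop where
  mem : ∀ a, θ a ∈ b
  surj : ∀ φ ∈ b, ∃ a, θ a = φ
  inj : Function.Injective θ
  val : ∀ (a i : ZMod p) (c c' : Ce (Subgroup.zpowers u)), ¬ p ∣ orderOf (c : G) → (c' : G) = zp p u i * c →
    (θ a : Ce (Subgroup.zpowers u) → ℂ) c' = Cyh.ee (a * i) * (θ 0 : Ce (Subgroup.zpowers u) → ℂ) c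

section exist

variable {M : Ideal AlgInt} {G : Type*} [Group G] [Fintype G] {p : ℕ} [hp : Fact p.Prime]
  [hMax : M.IsMaximal] [hch : CharP (KM M) p] {u : G}

theorem ee_pow (a i : ZMod p) : Cyh.ee a ^ i.val = Cyh.ee (a * i) := by
  have h : ∀ n : ℕ, Cyh.ee a ^ n = Cyh.ee (a * (n : ZMod p)) := by
    intro n
    induction n with
    | zero => rw [pow_zero, Nat.cast_zero, mul_zero, Cyh.ee_zero]
    | succ n ih => rw [pow_succ, ih, ← Cyh.ee_add]; congr 1; push_cast; ring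
  rw [h, ZMod.natCast_zmod_val]

theorem exists_ee {z : ℂ} (hz : z ^ p = 1) : ∃ a : ZMod p, Cyh.ee a = z := by
  obtain ⟨i, -, hi⟩ := (Complex.isPrimitiveRoot_exp p hp.out.ne_zero).eq_pow_of_pow_eq_one hz
  refine ⟨(i : ZMod p), ?_⟩
  unfold Cyh.ee
  have h1 : ((i : ZMod p)) = ((i : ℤ) : ZMod p) := by push_cast; rfl
  rw [h1, ZMod.stdAddChar_coe, ← hi, ← Complex.exp_nat_mul]
  congr 1
  push_cast
  ring

theorem agree (hM : IsPModular p M) {C : Type*} [Group C] [Fintype C] {b : Set (IrrCharacter C)} {Q : Subgroup C}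
    (hnil : IsNilpotentBlock p M b) (hD : IsDefectGroup p M b Q) (hab : ∀ x y : Q, x * y = y * x) :
    (∀ φ ∈ b, ∀ φ' ∈ b, ∀ y : C, ¬ p ∣ orderOf y → (φ : C → ℂ) y = (φ' : C → ℂ) y) ∧
      Nat.card b = Nat.card Q := by
  classical
  obtain ⟨hb, hn⟩ := nilp_iff.1 hnil
  obtain ⟨E, hbp, htop⟩ := H25.STs.exists_max_of hM hb hD
  haveI : Fintype Q := Fintype.ofFinite _
  obtain ⟨χ₀, h0, -, Ψ, hΨ⟩ := H25.STs.nil_main hM hb hn hbp htop
  have hdeg : ∀ η : IrrCharacter Q, charDegree (η : Q → ℂ) = 1 := by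
    intro η
    have h1 := charDegree_eq η.2
    rw [H10.AbChar.lin_one hab η] at h1
    exact_mod_cast h1
  have hall : ∀ φ ∈ b, ∀ y : C, ¬ p ∣ orderOf y → (φ : C → ℂ) y = (χ₀ : C → ℂ) y := by
    intro φ hφ y hy
    have h1 := hΨ (Ψ.symm ⟨φ, hφ⟩) y hy
    rw [Equiv.apply_symm_apply, hdeg] at h1
    simpa using h1
  refine ⟨fun φ hφ φ' hφ' y hy => (hall φ hφ y hy).trans (hall φ' hφ' y hy).symm, ?_⟩
  rw [← Nat.card_congr Ψ, H10.AbChar.card_irr_comm hab]

/-- the central element -/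
def uc (u : G) : Ce (Subgroup.zpowers u) := ⟨u, by
  rw [Subgroup.mem_centralizer_iff]
  rintro y ⟨k, rfl⟩
  exact ((Commute.refl u).zpow_left k).eq⟩

theorem uc_comm (c : Ce (Subgroup.zpowers u)) : c * uc u = uc u * c :=
  Subtype.ext (Subgroup.mem_centralizer_iff.1 c.2 u (Subgroup.mem_zpowers u)).symm

theorem uc_pow (hu : orderOf u = p) : (uc u) ^ p = 1 := Subtype.ext (by
  show u ^ p = 1
  rw [← hu]; exact pow_orderOf_eq_one u)

theorem exists_fam (hM : IsPModular p M) (hu : orderOf u = p) (hidx : ¬ p ∣ (Subgroup.zpowers u).index)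
    {b : Set (IrrCharacter (Ce (Subgroup.zpowers u)))} (hnil : IsNilpotentBlock p M b)
    (hD : IsDefectGroup p M b ((Subgroup.zpowers u).subgroupOf (Ce (Subgroup.zpowers u)))) :
    ∃ θ : ZMod p → IrrCharacter (Ce (Subgroup.zpowers u)), Fam p u b θ := by
  classical
  haveI : Fintype (Ce (Subgroup.zpowers u)) := Fintype.ofFinite _
  have hzC : Subgroup.zpowers u ≤ Ce (Subgroup.zpowers u) := by
    rw [Subgroup.zpowers_le]; exact (uc u).2
  obtain ⟨h1, h2⟩ := agree (M := M) hM hnil hD (by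
    intro x y
    apply Subtype.ext; apply Subtype.ext
    obtain ⟨k, hk⟩ := Subgroup.mem_subgroupOf.1 x.2
    obtain ⟨l, hl⟩ := Subgroup.mem_subgroupOf.1 y.2
    show ((x : Ce (Subgroup.zpowers u)) : G) * ((y : Ce (Subgroup.zpowers u)) : G) = ((y : Ce (Subgroup.zpowers u)) : G) * ((x : Ce (Subgroup.zpowers u)) : G)
    have hk' : u ^ k = ((x : Ce (Subgroup.zpowers u)) : G) := hk
    have hl' : u ^ l = ((y : Ce (Subgroup.zpowers u)) : G) := hl
    rw [← hk', ← hl', ← zpow_add, ← zpow_add, add_comm])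
  have h3 : Nat.card b = p := by
    rw [h2, Nat.card_congr (Subgroup.subgroupOfEquivOfLe hzC).toEquiv, Nat.card_zpowers, hu]
  have h4 : ∀ φ : IrrCharacter (Ce (Subgroup.zpowers u)), ∃ a : ZMod p, Cyh.ee a = zl (uc u) φ := fun φ =>
    exists_ee (zl_order uc_comm φ (uc_pow hu))
  choose A hA using h4
  have hval : ∀ (φ : IrrCharacter (Ce (Subgroup.zpowers u))) (i : ZMod p) (c c' : Ce (Subgroup.zpowers u)),
      (c' : G) = zp p u i * c → (φ : Ce (Subgroup.zpowers u) → ℂ) c' = Cyh.ee (A φ * i) * (φ : Ce (Subgroup.zpowers u) → ℂ) c := by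
    intro φ i c c' hc
    have h5 : c' = (uc u) ^ i.val * c := Subtype.ext hc
    rw [h5, zl_pow uc_comm, ← hA, ee_pow]
  have hAinj : ∀ φ ∈ b, ∀ φ' ∈ b, A φ = A φ' → φ = φ' := by
    intro φ hφ φ' hφ' hAA
    apply Subtype.ext
    funext c
    obtain ⟨i, y, hy, hyr, hc⟩ := decomp hu hidx c.2
    have hyr' : ¬ p ∣ orderOf (⟨y, hy⟩ : Ce (Subgroup.zpowers u)) := by
      rw [Subgroup.orderOf_mk]; exact hyr
    have h5 := hval φ i ⟨y, hy⟩ c hc
    have h6 := hval φ' i ⟨y, hy⟩ c hc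
    rw [h5, h6, hAA, h1 φ hφ φ' hφ' _ hyr']
  have hbij : Function.Bijective (fun φ : b => A φ.1) := by
    rw [Nat.bijective_iff_injective_and_card]
    refine ⟨fun φ φ' h => Subtype.ext (hAinj φ.1 φ.2 φ'.1 φ'.2 h), ?_⟩
    rw [h3, Nat.card_eq_fintype_card, ZMod.card]
  let e := Equiv.ofBijective _ hbij
  have he : ∀ a : ZMod p, A (e.symm a).1 = a := fun a => e.apply_symm_apply a
  refine ⟨fun a => (e.symm a).1, ⟨fun a => (e.symm a).2, ?_, ?_, ?_⟩⟩
  · intro φ hφ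
    exact ⟨A φ, by
      have := e.symm_apply_apply ⟨φ, hφ⟩
      exact congrArg Subtype.val this⟩
  · intro a a' h
    exact e.symm.injective (Subtype.ext h)
  · intro a i c c' hcr hc
    rw [hval (e.symm a).1 i c c' hc, he, h1 _ (e.symm a).2 _ (e.symm 0).2 c (by
      rw [← Subgroup.orderOf_coe]; exact hcr)]

end exist

section use

variable {M : Ideal AlgInt} {G : Type*} [Group G] [Fintype G] {p : ℕ} [hp : Fact p.Prime]
  {u : G} {b : Set (IrrCharacter (Ce (Subgroup.zpowers u)))} {θ : ZMod p → IrrCharacter (Ce (Subgroup.zpowers u))}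

theorem Fam.eq_zero (hf : Fam p u b θ) {φ : IrrCharacter (Ce (Subgroup.zpowers u))} (hφ : φ ∈ b)
    (h : ∀ x : Ce (Subgroup.zpowers u), (x : G) ∈ Subgroup.zpowers u → (φ : Ce (Subgroup.zpowers u) → ℂ) x = (φ : Ce (Subgroup.zpowers u) → ℂ) 1) : θ 0 = φ := by
  obtain ⟨a, rfl⟩ := hf.surj φ hφ
  have h1 := hf.val a 1 1 (uc u) (by
    rw [Subgroup.coe_one, orderOf_one]; exact hp.out.one_lt.ne' ∘ Nat.dvd_one.1) (by
    rw [Subgroup.coe_one, mul_one, zp_one]; rfl)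
  have h2 := hf.val a 0 1 1 (by
    rw [Subgroup.coe_one, orderOf_one]; exact hp.out.one_lt.ne' ∘ Nat.dvd_one.1) (by
    rw [Subgroup.coe_one, mul_one, zp_zero])
  have h3 := h (uc u) (Subgroup.mem_zpowers u)
  rw [h1, h2, mul_zero, Cyh.ee_zero, one_mul, mul_one] at h3
  haveI : Finite (Ce (Subgroup.zpowers u)) := inferInstance
  have h4 := IsIrr.one_ne_zero (θ 0).2
  have h5 : Cyh.ee a = 1 := by
    have := mul_right_cancel₀ h4 (h3.trans (one_mul _).symm)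
    exact this
  have h6 : a = 0 := by
    have h7 : ZMod.stdAddChar a = (1 : ℂ) := h5
    have h8 := ZMod.injective_stdAddChar (N := p)
    exact h8 (by rw [h7, AddChar.map_zero_eq_one])
  rw [h6]

open Classical in
/-- the canonical function, extended by zero -/
noncomputable def cf (p : ℕ) (u : G) (θ : IrrCharacter (Ce (Subgroup.zpowers u))) (y : G) : ℂ :=
  if h : y ∈ Ce (Subgroup.zpowers u) ∧ ¬ p ∣ orderOf y then (θ : Ce (Subgroup.zpowers u) → ℂ) ⟨y, h.1⟩ else 0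

theorem cf_supp (θ0 : IrrCharacter (Ce (Subgroup.zpowers u))) (i : ZMod p) (y : G) (h : cf p u θ0 y ≠ 0) :
    ¬ p ∣ orderOf y ∧ Commute (zp p u i) y := by
  by_cases hc : y ∈ Ce (Subgroup.zpowers u) ∧ ¬ p ∣ orderOf y
  · exact ⟨hc.2, zp_comm hc.1 i⟩
  · exact absurd (dif_neg hc) h

theorem cf_mem (θ0 : IrrCharacter (Ce (Subgroup.zpowers u))) {y : G} (hy : y ∈ Ce (Subgroup.zpowers u))
    (hr : ¬ p ∣ orderOf y) : cf p u θ0 y = (θ0 : Ce (Subgroup.zpowers u) → ℂ) ⟨y, hy⟩ := dif_pos ⟨hy, hr⟩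

open Classical in
/-- the generalized decomposition numbers in terms of the canonical function -/
theorem dd_eq [Fintype (Ce (Subgroup.zpowers u))] (hu : orderOf u = p) (hidx : ¬ p ∣ (Subgroup.zpowers u).index)
    (hf : Fam p u b θ) (χ : IrrCharacter G) (j : ZMod p) :
    Cyh.dd (fun (χ : IrrCharacter G) a => aa (Ce (Subgroup.zpowers u)) χ (θ a)) χ j =
      (p : ℂ) * (Nat.card (Ce (Subgroup.zpowers u)) : ℂ)⁻¹ * AA (zp p u j) (cf p u (θ 0)) (χ : G → ℂ) := by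
  have h1 : ∀ a : ZMod p, (aa (Ce (Subgroup.zpowers u)) χ (θ a) : ℂ) =
      (Nat.card (Ce (Subgroup.zpowers u)) : ℂ)⁻¹ *
        ∑ i : ZMod p, Cyh.ee (-(a * i)) * AA (zp p u i) (cf p u (θ 0)) (χ : G → ℂ) := by
    intro a
    rw [← aa_spec, classInner]
    congr 1
    have h2 := sumC hu hidx (fun g : G => (χ : G → ℂ) g * conj (extendByZero (Ce (Subgroup.zpowers u)) (θ a : Ce (Subgroup.zpowers u) → ℂ) g))
    have h3 : ∀ c : Ce (Subgroup.zpowers u), (χ : G → ℂ) (c : G) *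
        conj (extendByZero (Ce (Subgroup.zpowers u)) (θ a : Ce (Subgroup.zpowers u) → ℂ) (c : G)) =
        (χ : G → ℂ) c * conj ((θ a : Ce (Subgroup.zpowers u) → ℂ) c) := by
      intro c
      unfold extendByZero
      rw [Subtype.val_injective.extend_apply]
    rw [Finset.sum_congr rfl fun c _ => h3 c] at h2
    rw [h2]
    refine Finset.sum_congr rfl fun i _ => ?_
    unfold AA
    rw [Finset.mul_sum]
    refine Finset.sum_congr rfl fun y _ => ?_
    by_cases hy : y ∈ Ce (Subgroup.zpowers u) ∧ ¬ p ∣ orderOf y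
    · rw [if_pos hy]
      have h4 : extendByZero (Ce (Subgroup.zpowers u)) (θ a : Ce (Subgroup.zpowers u) → ℂ) (zp p u i * y) =
          (θ a : Ce (Subgroup.zpowers u) → ℂ) ⟨zp p u i * y, mul_mem (zp_mem_Ce i) hy.1⟩ := by
        unfold extendByZero
        exact Subtype.val_injective.extend_apply _ _ (⟨zp p u i * y, mul_mem (zp_mem_Ce i) hy.1⟩ : Ce (Subgroup.zpowers u))
      beta_reduce
      rw [h4, hf.val a i ⟨y, hy.1⟩ _ hy.2 rfl, cf_mem (θ 0) hy.1 hy.2, map_mul, Cyh.ee_conj]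
      ring
    · rw [if_neg hy]
      have h4 : cf p u (θ 0) y = 0 := dif_neg hy
      rw [h4]; simp
  unfold Cyh.dd
  simp only [h1]
  have h5 : ∀ a : ZMod p, (Nat.card (Ce (Subgroup.zpowers u)) : ℂ)⁻¹ *
      (∑ i : ZMod p, Cyh.ee (-(a * i)) * AA (zp p u i) (cf p u (θ 0)) (χ : G → ℂ)) * Cyh.ee (a * j) =
      ∑ i : ZMod p, ((Nat.card (Ce (Subgroup.zpowers u)) : ℂ)⁻¹ * AA (zp p u i) (cf p u (θ 0)) (χ : G → ℂ)) *
        Cyh.ee ((j - i) * a) := by
    intro a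
    rw [Finset.mul_sum, Finset.sum_mul]
    refine Finset.sum_congr rfl fun i _ => ?_
    have : Cyh.ee ((j - i) * a) = Cyh.ee (-(a * i)) * Cyh.ee (a * j) := by
      rw [← Cyh.ee_add]; congr 1; ring
    rw [this]; ring
  rw [Finset.sum_congr rfl fun a _ => h5 a, Finset.sum_comm]
  have h6 : ∀ i : ZMod p, ∑ a : ZMod p, ((Nat.card (Ce (Subgroup.zpowers u)) : ℂ)⁻¹ *
      AA (zp p u i) (cf p u (θ 0)) (χ : G → ℂ)) * Cyh.ee ((j - i) * a) =
      if i = j then (p : ℂ) * (Nat.card (Ce (Subgroup.zpowers u)) : ℂ)⁻¹ * AA (zp p u i) (cf p u (θ 0)) (χ : G → ℂ) else 0 := by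
    intro i
    rw [← Finset.mul_sum, Cyh.sum_ee]
    by_cases hij : i = j
    · rw [if_pos hij, if_pos (by rw [hij, sub_self])]; ring
    · rw [if_neg hij, if_neg (fun h => hij (sub_eq_zero.1 h).symm), mul_zero]
  rw [Finset.sum_congr rfl fun i _ => h6 i, Finset.sum_ite_eq' Finset.univ j, if_pos (Finset.mem_univ _)]

end use

end Cfsg.Agent.H25.Cyj
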