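import Cfsg.Agent.H25_Cyk

/-! The inertial quotient of a block with cyclic defect group. -/

set_option autoImplicit false
set_option linter.unusedSectionVars false

namespace Cfsg.Agent.H25.Cyk

open Cfsg Cfsg.Agent.H25.Red Cfsg.Agent.H25.KG Cfsg.Agent.H25.BPTr Cfsg.Agent.H25.BPMain
  Cfsg.Agent.H25.BPDef Cfsg.Agent.H25.Fus Cfsg.Agent.H25.Nilp Cfsg.Agent.H25.NilpAb Cfsg.Agent.H25.ExtFMT
  Cfsg.Agent.H25.FMT Cfsg.Agent.H25.AbSec

variable {M : Ideal AlgInt} {G : Type*} [Group G] [Fintype G] {p : ℕ} [hp : Fact p.Prime]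
  [hMax : M.IsMaximal] [hch : CharP (KM M) p] {B : MonoidAlgebra (KM M) G} {P Q : Subgroup G}
  {E f : MonoidAlgebra (KM M) G}

theorem quot_cyc (hM : IsPModular p M) (hP : BP p B P E) (htop : KG.Top p P E) (hc : IsCyclic P) (hP1 : P ≠ ⊥)
    {T : Subgroup G} (hT : T = Nf P E) [hn : ((Subgroup.centralizer (P : Set G)).subgroupOf T).Normal] :
    IsCyclic (T ⧸ (Subgroup.centralizer (P : Set G)).subgroupOf T) ∧
      (Subgroup.centralizer (P : Set G)).relIndex T ∣ p - 1 := by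
  obtain ⟨n, hnP⟩ := IsPGroup.iff_card.1 hP.pg
  have hdvd : p ∣ Nat.card P := by
    rw [hnP]
    apply dvd_pow_self
    rintro rfl
    rw [pow_zero] at hnP
    exact hP1 (Subgroup.card_eq_one.1 hnP)
  obtain ⟨y, hy⟩ := exists_prime_orderOf_dvd_card' p hdvd
  set Q1 : Subgroup G := Subgroup.zpowers (y : G) with hQ1
  have hQ1P : Q1 ≤ P := Subgroup.zpowers_le.2 y.2
  have hcard : Nat.card Q1 = p := by rw [hQ1, Nat.card_zpowers, Subgroup.orderOf_coe, hy]
  have hQ1ne : Q1 ≠ ⊥ := by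
    intro h
    rw [h, Subgroup.card_bot] at hcard
    exact hp.out.one_lt.ne hcard
  have hTN : T ≤ Subgroup.normalizer (Q1 : Set G) := by
    intro t ht
    rw [hT] at ht
    exact norm_sub hc hQ1P ht.1
  let φ : T →* MulAut Q1 := (Subgroup.normalizerMonoidHom Q1).comp (Subgroup.inclusion hTN)
  have hker : (Subgroup.centralizer (P : Set G)).subgroupOf T = φ.ker := by
    ext t
    rw [MonoidHom.mem_ker]
    show _ ↔ (Subgroup.normalizerMonoidHom Q1) (Subgroup.inclusion hTN t) = 1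
    rw [← MonoidHom.mem_ker, Subgroup.normalizerMonoidHom_ker, Subgroup.mem_subgroupOf, Subgroup.mem_subgroupOf]
    have h1 := inf_Ce hM hP htop hc hQ1P hQ1ne
    constructor
    · intro h; exact Ce_anti hQ1P h
    · intro h
      have h2 : (t : G) ∈ Nf P E ⊓ Ce Q1 := ⟨hT ▸ t.2, h⟩
      rw [h1] at h2
      exact h2
  haveI : Fact (Nat.card Q1).Prime := ⟨by rw [hcard]; exact hp.out⟩
  haveI : IsCyclic (MulAut Q1) := isCyclic_of_surjective (IsCyclic.mulAutMulEquiv Q1).symm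
    (IsCyclic.mulAutMulEquiv Q1).symm.surjective
  let e : (T ⧸ (Subgroup.centralizer (P : Set G)).subgroupOf T) ≃* φ.range :=
    (QuotientGroup.quotientMulEquivOfEq hker).trans (QuotientGroup.quotientKerEquivRange φ)
  refine ⟨isCyclic_of_surjective e.symm e.symm.surjective, ?_⟩
  have h1 : (Subgroup.centralizer (P : Set G)).relIndex T = Nat.card φ.range := by
    rw [← Nat.card_congr e.toEquiv]; rfl
  rw [h1]
  refine (Subgroup.card_subgroup_dvd_card φ.range).trans (dvd_of_eq ?_)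
  rw [IsCyclic.card_mulAut, hcard, Nat.totient_prime hp.out]

end Cfsg.Agent.H25.Cyk
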