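import Mathlib
import Cfsg.Agent.H25_Cyj

/-!
H25_Cyl: orthogonality of the multiplicity vectors for a defect group of prime order.
-/

set_option autoImplicit false
set_option linter.unusedSectionVars false

open scoped ComplexConjugate

namespace Cfsg.Agent.H25.Cyl

open Cfsg Cfsg.Agent.H3.CharIrr Cfsg.Agent.H3.CharComplete Cfsg.Agent.H3.CharBasic
  Cfsg.Agent.H10.BlockLoc Cfsg.Agent.H10.BlockAlg Cfsg.Agent.H10.BlockIdem Cfsg.Agent.H10.BlockDefect
  Cfsg.Agent.H10.Char Cfsg.Agent.H10.PPart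
  Cfsg.Agent.H25.IndCong Cfsg.Agent.H25.Sub Cfsg.Agent.H25.Sub2 Cfsg.Agent.H25.Cyh Cfsg.Agent.H25.Cyi
  Cfsg.Agent.H25.Cyj
  Cfsg.Agent.H25.Red Cfsg.Agent.H25.KG Cfsg.Agent.H25.BPTr Cfsg.Agent.H25.BPMain Cfsg.Agent.H25.BPDef
  Cfsg.Agent.H25.Fus Cfsg.Agent.H25.Nilp Cfsg.Agent.H25.NilpAb Cfsg.Agent.H25.FMT Cfsg.Agent.H9.BrVec Cfsg.Agent.H9.BrMain

section norm

variable {G : Type*} [Group G] [Fintype G] {p : ℕ} [hp : Fact p.Prime]
  {u : G} {b : Set (IrrCharacter (Ce (Subgroup.zpowers u)))} {θ : ZMod p → IrrCharacter (Ce (Subgroup.zpowers u))}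

theorem nm_Ce {t : G} (ht : t ∈ Subgroup.normalizer (Subgroup.zpowers u : Set G)) {c : G} :
    t * c * t⁻¹ ∈ Ce (Subgroup.zpowers u) ↔ c ∈ Ce (Subgroup.zpowers u) := by
  have h1 := norm_le_norm_Ce (Subgroup.zpowers u) ht
  exact (Subgroup.mem_normalizer_iff.1 h1 c).symm

/-- conjugation by an element of the normalizer -/
noncomputable def cj {t : G} (ht : t ∈ Subgroup.normalizer (Subgroup.zpowers u : Set G)) :
    Ce (Subgroup.zpowers u) ≃* Ce (Subgroup.zpowers u) where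
  toFun c := ⟨t * c * t⁻¹, (nm_Ce ht).2 c.2⟩
  invFun c := ⟨t⁻¹ * c * t, (nm_Ce ht).1 (by
    have : t * (t⁻¹ * (c : G) * t) * t⁻¹ = c := by group
    rw [this]; exact c.2)⟩
  left_inv c := Subtype.ext (by show t⁻¹ * (t * (c : G) * t⁻¹) * t = c; group)
  right_inv c := Subtype.ext (by show t * (t⁻¹ * (c : G) * t) * t⁻¹ = c; group)
  map_mul' a c := Subtype.ext (by
    show t * ((a : G) * c) * t⁻¹ = (t * a * t⁻¹) * (t * c * t⁻¹)
    group)

/-- stability of the canonical character -/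
def Stb (θ0 : IrrCharacter (Ce (Subgroup.zpowers u))) (t : G) : Prop :=
  ∀ c c' : Ce (Subgroup.zpowers u), (c' : G) = t * c * t⁻¹ →
    (θ0 : Ce (Subgroup.zpowers u) → ℂ) c' = (θ0 : Ce (Subgroup.zpowers u) → ℂ) c

theorem norm_gen (hu : orderOf u = p) (hidx : ¬ p ∣ (Subgroup.zpowers u).index) (hf : Fam p u b θ)
    {t : G} (ht : t ∈ Subgroup.normalizer (Subgroup.zpowers u : Set G)) [Fintype (Ce (Subgroup.zpowers u))] :
    (p : ℂ) * ∑ y : G, conj (cf p u (θ 0) y) * cf p u (θ 0) (t * y * t⁻¹) =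
      (Nat.card (Ce (Subgroup.zpowers u)) : ℂ) * classInner
        ((H10.BlockEFM.tr (cj ht) (θ 0) : IrrCharacter (Ce (Subgroup.zpowers u))) : Ce (Subgroup.zpowers u) → ℂ)
        ((θ 0 : IrrCharacter (Ce (Subgroup.zpowers u))) : Ce (Subgroup.zpowers u) → ℂ) := by
  classical
  rw [classInner, ← mul_assoc, mul_inv_cancel₀ (Nat.cast_ne_zero.2 Nat.card_pos.ne'), one_mul]
  have h2 := sumC hu hidx (fun g : G => extendByZero (Ce (Subgroup.zpowers u)) (θ 0 : Ce (Subgroup.zpowers u) → ℂ) (t * g * t⁻¹) *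
    conj (extendByZero (Ce (Subgroup.zpowers u)) (θ 0 : Ce (Subgroup.zpowers u) → ℂ) g))
  have hext : ∀ c : Ce (Subgroup.zpowers u),
      extendByZero (Ce (Subgroup.zpowers u)) (θ 0 : Ce (Subgroup.zpowers u) → ℂ) (c : G) =
      (θ 0 : Ce (Subgroup.zpowers u) → ℂ) c := by
    intro c
    unfold extendByZero
    rw [Subtype.val_injective.extend_apply]
  have h3 : ∀ c : Ce (Subgroup.zpowers u),
      extendByZero (Ce (Subgroup.zpowers u)) (θ 0 : Ce (Subgroup.zpowers u) → ℂ) (t * (c : G) * t⁻¹) *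
        conj (extendByZero (Ce (Subgroup.zpowers u)) (θ 0 : Ce (Subgroup.zpowers u) → ℂ) (c : G)) =
      ((H10.BlockEFM.tr (cj ht) (θ 0) : IrrCharacter (Ce (Subgroup.zpowers u))) : Ce (Subgroup.zpowers u) → ℂ) c *
        conj ((θ 0 : Ce (Subgroup.zpowers u) → ℂ) c) := by
    intro c
    rw [hext c, H10.BlockEFM.tr_apply, ← hext (cj ht c)]
    rfl
  rw [← Finset.sum_congr rfl fun c _ => h3 c, h2]
  have h4 : ∀ i : ZMod p, ∑ y : G, (if y ∈ Ce (Subgroup.zpowers u) ∧ ¬ p ∣ orderOf y then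
      extendByZero (Ce (Subgroup.zpowers u)) (θ 0 : Ce (Subgroup.zpowers u) → ℂ) (t * (zp p u i * y) * t⁻¹) *
        conj (extendByZero (Ce (Subgroup.zpowers u)) (θ 0 : Ce (Subgroup.zpowers u) → ℂ) (zp p u i * y)) else 0) =
      ∑ y : G, conj (cf p u (θ 0) y) * cf p u (θ 0) (t * y * t⁻¹) := by
    intro i
    refine Finset.sum_congr rfl fun y _ => ?_
    by_cases hy : y ∈ Ce (Subgroup.zpowers u) ∧ ¬ p ∣ orderOf y
    · rw [if_pos hy, cf_mem (θ 0) hy.1 hy.2]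
      have hty : t * y * t⁻¹ ∈ Ce (Subgroup.zpowers u) := (nm_Ce ht).2 hy.1
      have htr : ¬ p ∣ orderOf (t * y * t⁻¹) := by rw [orderOf_conj]; exact hy.2
      rw [cf_mem (θ 0) hty htr]
      have e1 : extendByZero (Ce (Subgroup.zpowers u)) (θ 0 : Ce (Subgroup.zpowers u) → ℂ) (zp p u i * y) =
          (θ 0 : Ce (Subgroup.zpowers u) → ℂ) ⟨y, hy.1⟩ := by
        rw [hext ⟨zp p u i * y, mul_mem (zp_mem_Ce i) hy.1⟩, hf.val 0 i ⟨y, hy.1⟩ _ hy.2 rfl, zero_mul,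
          Cyh.ee_zero, one_mul]
      have e2 : t * (zp p u i * y) * t⁻¹ = zp p u ((om hu ⟨t, ht⟩ : ZMod p) * i) * (t * y * t⁻¹) := by
        rw [← om_spec hu ⟨t, ht⟩ i]; group
      have e3 : extendByZero (Ce (Subgroup.zpowers u)) (θ 0 : Ce (Subgroup.zpowers u) → ℂ) (t * (zp p u i * y) * t⁻¹) =
          (θ 0 : Ce (Subgroup.zpowers u) → ℂ) ⟨t * y * t⁻¹, hty⟩ := by
        rw [e2, hext ⟨zp p u ((om hu ⟨t, ht⟩ : ZMod p) * i) * (t * y * t⁻¹), mul_mem (zp_mem_Ce _) hty⟩,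
          hf.val 0 _ ⟨t * y * t⁻¹, hty⟩ _ htr rfl, zero_mul, Cyh.ee_zero, one_mul]
      rw [e1, e3]; ring
    · rw [if_neg hy]
      have e1 : cf p u (θ 0) y = 0 := dif_neg hy
      rw [e1, map_zero, zero_mul]
  rw [Finset.sum_congr rfl fun i _ => h4 i, Finset.sum_const, Finset.card_univ, ZMod.card, nsmul_eq_mul]

theorem norm_stb (hu : orderOf u = p) (hidx : ¬ p ∣ (Subgroup.zpowers u).index) (hf : Fam p u b θ)
    {t : G} (ht : t ∈ Subgroup.normalizer (Subgroup.zpowers u : Set G)) (hs : Stb (θ 0) t) :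
    (p : ℂ) * ∑ y : G, conj (cf p u (θ 0) y) * cf p u (θ 0) (t * y * t⁻¹) =
      (Nat.card (Ce (Subgroup.zpowers u)) : ℂ) := by
  classical
  haveI : Fintype (Ce (Subgroup.zpowers u)) := Fintype.ofFinite _
  rw [norm_gen hu hidx hf ht]
  have h1 : H10.BlockEFM.tr (cj ht) (θ 0) = θ 0 := Subtype.ext (funext fun c => by
    rw [H10.BlockEFM.tr_apply]
    exact hs c _ rfl)
  rw [h1, ci_irr_self (θ 0).2, mul_one]

theorem norm_nstb (hu : orderOf u = p) (hidx : ¬ p ∣ (Subgroup.zpowers u).index) (hf : Fam p u b θ)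
    {t : G} (ht : t ∈ Subgroup.normalizer (Subgroup.zpowers u : Set G)) (hs : ¬ Stb (θ 0) t) :
    (p : ℂ) * ∑ y : G, conj (cf p u (θ 0) y) * cf p u (θ 0) (t * y * t⁻¹) = 0 := by
  classical
  haveI : Fintype (Ce (Subgroup.zpowers u)) := Fintype.ofFinite _
  rw [norm_gen hu hidx hf ht]
  rw [ci_irr_ne (H10.BlockEFM.tr (cj ht) (θ 0)).2 (θ 0).2, mul_zero]
  intro heq
  apply hs
  intro c c' hc
  have h1 := congrFun heq c
  rw [H10.BlockEFM.tr_apply] at h1
  have h2 : c' = cj ht c := Subtype.ext hc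
  rw [h2]; exact h1

theorem nm_of_conj (hu : orderOf u = p) {i j : ZMod p} (hi : i ≠ 0) {t : G} (h : t * zp p u i * t⁻¹ = zp p u j) :
    t ∈ Subgroup.normalizer (Subgroup.zpowers u : Set G) := by
  have h1 : Subgroup.zpowers (zp p u i) = Subgroup.zpowers u := by
    have h2 : Subgroup.zpowers (zp p u i) ≤ Subgroup.zpowers u := by
      rw [Subgroup.zpowers_le]; unfold zp; exact Subgroup.pow_mem _ (Subgroup.mem_zpowers u) _
    refine Subgroup.eq_of_le_of_card_ge h2 ?_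
    rw [Nat.card_zpowers, Nat.card_zpowers, zp_order' hu hi, hu]
  have hj : j ≠ 0 := by
    rintro rfl
    rw [zp_zero] at h
    have h3 : zp p u i = 1 := by
      have : zp p u i = t⁻¹ * (t * zp p u i * t⁻¹) * t := by group
      rw [this, h]; group
    exact hi ((zp_eq_one hu).1 h3)
  have h2 : Subgroup.zpowers (zp p u j) = Subgroup.zpowers u := by
    have h2 : Subgroup.zpowers (zp p u j) ≤ Subgroup.zpowers u := by
      rw [Subgroup.zpowers_le]; unfold zp; exact Subgroup.pow_mem _ (Subgroup.mem_zpowers u) _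
    refine Subgroup.eq_of_le_of_card_ge h2 ?_
    rw [Nat.card_zpowers, Nat.card_zpowers, zp_order' hu hj, hu]
  rw [mem_normalizer_iff_cs]
  conv_lhs => rw [← h1]
  rw [← h2, ← h]
  exact AbSec.cs_zp t (zp p u i)

end norm

section kernel

variable {G : Type*} [Group G] [Fintype G] {p : ℕ} [hp : Fact p.Prime]
  {u : G} {b : Set (IrrCharacter (Ce (Subgroup.zpowers u)))} {θ : ZMod p → IrrCharacter (Ce (Subgroup.zpowers u))}

/-- the multiplicities -/
noncomputable def mm0 (θ : ZMod p → IrrCharacter (Ce (Subgroup.zpowers u))) (χ : IrrCharacter G) (a : ZMod p) : ℕ :=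
  letI : Fintype (Ce (Subgroup.zpowers u)) := Fintype.ofFinite _
  aa (Ce (Subgroup.zpowers u)) χ (θ a)

theorem dd_AA (hu : orderOf u = p) (hidx : ¬ p ∣ (Subgroup.zpowers u).index) (hf : Fam p u b θ)
    (χ : IrrCharacter G) (j : ZMod p) :
    Cyh.dd (mm0 θ) χ j = (p : ℂ) * (Nat.card (Ce (Subgroup.zpowers u)) : ℂ)⁻¹ *
      AA (zp p u j) (cf p u (θ 0)) (χ : G → ℂ) := by
  letI : Fintype (Ce (Subgroup.zpowers u)) := Fintype.ofFinite _
  exact dd_eq hu hidx hf χ j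

/-- the image of the stabilizer -/
noncomputable def HT (hu : orderOf u = p) (T : Subgroup G) : Subgroup (ZMod p)ˣ :=
  (T.subgroupOf (Subgroup.normalizer (Subgroup.zpowers u : Set G))).map (om hu)

theorem mem_HT (hu : orderOf u = p) {T : Subgroup G} {h : (ZMod p)ˣ} : h ∈ HT hu T ↔
    ∃ t, ∃ ht : t ∈ Subgroup.normalizer (Subgroup.zpowers u : Set G), t ∈ T ∧ om hu ⟨t, ht⟩ = h := by
  unfold HT
  rw [Subgroup.mem_map]
  constructor
  · rintro ⟨⟨t, ht⟩, h1, h2⟩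
    exact ⟨t, ht, Subgroup.mem_subgroupOf.1 h1, h2⟩
  · rintro ⟨t, ht, h1, h2⟩
    exact ⟨⟨t, ht⟩, Subgroup.mem_subgroupOf.2 h1, h2⟩

theorem card_HT (hu : orderOf u = p) {T : Subgroup G} (hT : T ≤ Subgroup.normalizer (Subgroup.zpowers u : Set G)) :
    Nat.card (HT hu T) = (Ce (Subgroup.zpowers u)).relIndex T := by
  have h1 : HT hu T = ((om hu).comp (Subgroup.inclusion hT)).range := by
    ext h
    rw [mem_HT, MonoidHom.mem_range]
    constructor
    · rintro ⟨t, ht, h1, h2⟩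
      exact ⟨⟨t, h1⟩, h2⟩
    · rintro ⟨⟨t, ht⟩, h1⟩
      exact ⟨t, hT ht, ht, h1⟩
  rw [h1, ← Subgroup.index_ker]
  congr 1
  ext ⟨t, ht⟩
  rw [MonoidHom.mem_ker, Subgroup.mem_subgroupOf]
  have h2 := ker_om hu
  have h3 : (⟨t, hT ht⟩ : Subgroup.normalizer (Subgroup.zpowers u : Set G)) ∈ (om hu).ker ↔
      t ∈ Subgroup.centralizer (Subgroup.zpowers u : Set G) := by
    rw [h2, Subgroup.mem_subgroupOf]
  rw [MonoidHom.mem_ker] at h3
  exact h3

theorem free_HT {H : Subgroup (ZMod p)ˣ} : ∀ h ∈ H, ∀ i : ZMod p, i ≠ 0 → (h : ZMod p) * i = i → h = 1 := by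
  intro h _ i hi heq
  have h1 : (h : ZMod p) * i = 1 * i := by rw [one_mul]; exact heq
  exact Units.ext (by rw [mul_right_cancel₀ hi h1, Units.val_one])

variable {T : Subgroup G}

/-- the sum over all irreducible characters -/
theorem kernel_all [Fintype (IrrCharacter G)] (hu : orderOf u = p) (hidx : ¬ p ∣ (Subgroup.zpowers u).index) (hf : Fam p u b θ)
    (hT : ∀ t : G, t ∈ T ↔ t ∈ Subgroup.normalizer (Subgroup.zpowers u : Set G) ∧ Stb (θ 0) t)
    (i j : ZMod p) (hi : i ≠ 0) :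
    ((∃ h ∈ HT hu T, j = (h : ZMod p) * i) →
      ∑ χ : IrrCharacter G, Cyh.dd (mm0 θ) χ i * conj (Cyh.dd (mm0 θ) χ j) = (p : ℂ)) ∧
    ((¬ ∃ h ∈ HT hu T, j = (h : ZMod p) * i) →
      ∑ χ : IrrCharacter G, Cyh.dd (mm0 θ) χ i * conj (Cyh.dd (mm0 θ) χ j) = 0) := by
  classical
  have hC0 : (Nat.card (Ce (Subgroup.zpowers u)) : ℂ) ≠ 0 := Nat.cast_ne_zero.2 Nat.card_pos.ne'
  have hp0 : (p : ℂ) ≠ 0 := Nat.cast_ne_zero.2 hp.out.ne_zero
  have h1 : ∑ χ : IrrCharacter G, Cyh.dd (mm0 θ) χ i * conj (Cyh.dd (mm0 θ) χ j) =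
      ((p : ℂ) * (Nat.card (Ce (Subgroup.zpowers u)) : ℂ)⁻¹) * ((p : ℂ) * (Nat.card (Ce (Subgroup.zpowers u)) : ℂ)⁻¹) *
        ∑ t : G, if t * zp p u i * t⁻¹ = zp p u j then
          ∑ y : G, conj (cf p u (θ 0) y) * cf p u (θ 0) (t * y * t⁻¹) else 0 := by
    rw [← col_orth (zp_ord hu i) (zp_ord hu j) (cf_supp (θ 0) i) (cf_supp (θ 0) j), Finset.mul_sum]
    refine Finset.sum_congr rfl fun χ _ => ?_
    rw [dd_AA hu hidx hf, dd_AA hu hidx hf, map_mul, map_mul, map_inv₀, map_natCast, map_natCast]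
    ring
  have h2 : ∀ t : G, (if t * zp p u i * t⁻¹ = zp p u j then
      ∑ y : G, conj (cf p u (θ 0) y) * cf p u (θ 0) (t * y * t⁻¹) else 0) =
      if t * zp p u i * t⁻¹ = zp p u j ∧ t ∈ T then (p : ℂ)⁻¹ * (Nat.card (Ce (Subgroup.zpowers u)) : ℂ) else 0 := by
    intro t
    by_cases ht : t * zp p u i * t⁻¹ = zp p u j
    · rw [if_pos ht]
      have hn := nm_of_conj hu hi ht
      by_cases hs : Stb (θ 0) t
      · rw [if_pos ⟨ht, (hT t).2 ⟨hn, hs⟩⟩, ← norm_stb hu hidx hf hn hs, ← mul_assoc, inv_mul_cancel₀ hp0, one_mul]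
      · rw [if_neg (fun h => hs ((hT t).1 h.2).2)]
        have := norm_nstb hu hidx hf hn hs
        rcases mul_eq_zero.1 this with h | h
        · exact absurd h hp0
        · exact h
    · rw [if_neg ht, if_neg (fun h => ht h.1)]
  rw [h1, Finset.sum_congr rfl fun t _ => h2 t, ← Finset.sum_filter, Finset.sum_const, nsmul_eq_mul]
  constructor
  · rintro ⟨h, hh, hj⟩
    obtain ⟨t0, ht0, ht0T, ht0h⟩ := (mem_HT hu).1 hh
    have ht0c : t0 * zp p u i * t0⁻¹ = zp p u j := by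
      have := om_spec hu ⟨t0, ht0⟩ i
      rw [ht0h, ← hj] at this
      exact this
    have hcard : (Finset.univ.filter fun t : G => t * zp p u i * t⁻¹ = zp p u j ∧ t ∈ T).card =
        Nat.card (Ce (Subgroup.zpowers u)) := by
      symm
      rw [Nat.card_eq_fintype_card, ← Finset.card_univ]
      refine Finset.card_bij (fun (c : Ce (Subgroup.zpowers u)) _ => t0 * (c : G)) ?_ ?_ ?_
      · intro c _
        rw [Finset.mem_filter]
        have hcc : (c : G) * zp p u i * (c : G)⁻¹ = zp p u i := by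
          rw [← (zp_comm c.2 i).eq]; group
        have hcT : (c : G) ∈ T := by
          rw [hT]
          refine ⟨Subgroup.centralizer_le_normalizer _ c.2, ?_⟩
          intro a a' haa
          have h3 : a' = c * a * c⁻¹ := Subtype.ext haa
          rw [h3]
          haveI : Fintype (Ce (Subgroup.zpowers u)) := Fintype.ofFinite _
          exact (IsIrr.isClass (θ 0).2) a c
        refine ⟨Finset.mem_univ _, ?_, mul_mem ht0T hcT⟩
        calc t0 * (c : G) * zp p u i * (t0 * (c : G))⁻¹ = t0 * ((c : G) * zp p u i * (c : G)⁻¹) * t0⁻¹ := by group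
          _ = zp p u j := by rw [hcc, ht0c]
      · intro a _ c _ hac
        exact Subtype.ext (mul_left_cancel hac)
      · intro t ht
        rw [Finset.mem_filter] at ht
        obtain ⟨-, ht1, ht2⟩ := ht
        have htn := ((hT t).1 ht2).1
        have h3 : t0⁻¹ * t ∈ Ce (Subgroup.zpowers u) := by
          have hmem : (⟨t0, ht0⟩⁻¹ * ⟨t, htn⟩ : Subgroup.normalizer (Subgroup.zpowers u : Set G)) ∈ (om hu).ker := by
            rw [MonoidHom.mem_ker, map_mul, map_inv, inv_mul_eq_one]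
            have e1 := om_spec hu ⟨t0, ht0⟩ i
            have e2 := om_spec hu ⟨t, htn⟩ i
            have e3 : zp p u ((om hu ⟨t0, ht0⟩ : ZMod p) * i) = zp p u ((om hu ⟨t, htn⟩ : ZMod p) * i) := by
              rw [← e1, ← e2]
              show t0 * zp p u i * t0⁻¹ = t * zp p u i * t⁻¹
              rw [ht0c, ht1]
            have e4 := mul_right_cancel₀ hi (zp_injective hu e3)
            exact Units.ext e4
          rw [ker_om hu, Subgroup.mem_subgroupOf] at hmem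
          exact hmem
        exact ⟨⟨t0⁻¹ * t, h3⟩, Finset.mem_univ _, by simp⟩
    rw [hcard]
    field_simp
  · intro hne
    have hcard : (Finset.univ.filter fun t : G => t * zp p u i * t⁻¹ = zp p u j ∧ t ∈ T) = ∅ := by
      rw [Finset.filter_eq_empty_iff]
      rintro t - ⟨h3, h4⟩
      apply hne
      have hn := ((hT t).1 h4).1
      refine ⟨om hu ⟨t, hn⟩, (mem_HT hu).2 ⟨t, hn, h4, rfl⟩, ?_⟩
      apply zp_injective hu
      rw [← om_spec hu ⟨t, hn⟩ i]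
      exact h3.symm
    rw [hcard, Finset.card_empty, Nat.cast_zero, zero_mul, mul_zero]

/-- invariance of the generalized decomposition numbers -/
theorem dd_inv (hu : orderOf u = p) (hidx : ¬ p ∣ (Subgroup.zpowers u).index) (hf : Fam p u b θ)
    (hT : ∀ t : G, t ∈ T ↔ t ∈ Subgroup.normalizer (Subgroup.zpowers u : Set G) ∧ Stb (θ 0) t)
    (χ : IrrCharacter G) {h : (ZMod p)ˣ} (hh : h ∈ HT hu T) (i : ZMod p) :
    Cyh.dd (mm0 θ) χ ((h : ZMod p) * i) = Cyh.dd (mm0 θ) χ i := by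
  classical
  obtain ⟨t, ht, htT, hth⟩ := (mem_HT hu).1 hh
  have hs := ((hT t).1 htT).2
  rw [dd_AA hu hidx hf, dd_AA hu hidx hf]
  congr 1
  unfold AA
  symm
  refine Fintype.sum_equiv (MulAut.conj t).toEquiv _ _ fun y => ?_
  have h1 : (MulAut.conj t).toEquiv y = t * y * t⁻¹ := rfl
  rw [h1]
  have h2 : zp p u ((h : ZMod p) * i) * (t * y * t⁻¹) = t * (zp p u i * y) * t⁻¹ := by
    rw [← hth, ← om_spec hu ⟨t, ht⟩ i]; group
  rw [h2, IsIrr.isClass χ.2]
  congr 2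
  by_cases hy : y ∈ Ce (Subgroup.zpowers u) ∧ ¬ p ∣ orderOf y
  · have hty : t * y * t⁻¹ ∈ Ce (Subgroup.zpowers u) := (nm_Ce ht).2 hy.1
    have htr : ¬ p ∣ orderOf (t * y * t⁻¹) := by rw [orderOf_conj]; exact hy.2
    rw [cf_mem (θ 0) hy.1 hy.2, cf_mem (θ 0) hty htr]
    exact (hs ⟨y, hy.1⟩ ⟨t * y * t⁻¹, hty⟩ rfl).symm
  · have e1 : cf p u (θ 0) y = 0 := dif_neg hy
    have e2 : cf p u (θ 0) (t * y * t⁻¹) = 0 := by
      apply dif_neg
      rintro ⟨h3, h4⟩
      exact hy ⟨(nm_Ce ht).1 h3, by rwa [orderOf_conj] at h4⟩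
    rw [e1, e2]

end kernel

end Cfsg.Agent.H25.Cyl
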