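import Mathlib
import Cfsg.Agent.H25_Cyl

/-!
H25_Cym: Brauer's theorem on blocks with defect group of prime order equal to the full p-part.
-/

set_option autoImplicit false
set_option linter.unusedSectionVars false

open scoped ComplexConjugate

namespace Cfsg.Agent.H25.Cym

open Cfsg Cfsg.Agent.H3.CharIrr Cfsg.Agent.H3.CharComplete Cfsg.Agent.H3.CharBasic
  Cfsg.Agent.H10.BlockLoc Cfsg.Agent.H10.BlockAlg Cfsg.Agent.H10.BlockIdem Cfsg.Agent.H10.BlockDefect
  Cfsg.Agent.H10.Char Cfsg.Agent.H10.PPart Cfsg.Agent.H10.BlockMain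
  Cfsg.Agent.H25.IndCong Cfsg.Agent.H25.Sub Cfsg.Agent.H25.Sub2 Cfsg.Agent.H25.Cyh Cfsg.Agent.H25.Cyi
  Cfsg.Agent.H25.Cyj Cfsg.Agent.H25.Cyl Cfsg.Agent.H25.Cya Cfsg.Agent.H25.Cyb Cfsg.Agent.H25.Cyd Cfsg.Agent.H25.Cyf
  Cfsg.Agent.H25.Red Cfsg.Agent.H25.KG Cfsg.Agent.H25.BPTr Cfsg.Agent.H25.BPMain Cfsg.Agent.H25.BPDef
  Cfsg.Agent.H25.Fus Cfsg.Agent.H25.Nilp Cfsg.Agent.H25.NilpAb Cfsg.Agent.H25.FMT Cfsg.Agent.H25.Cyk
  Cfsg.Agent.H9.BrVec Cfsg.Agent.H9.BrMain

section count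

variable {G : Type*} [Group G] [Fintype G]

open Classical in
theorem card_out {P H : Subgroup G} (hPH : P ≤ H) :
    (Finset.univ.filter fun q : G ⧸ P => q.out ∈ H).card * Nat.card P = Nat.card H := by
  rw [← Fintype.card_subtype, ← Nat.card_eq_fintype_card, ← Nat.card_prod]
  refine Nat.card_eq_of_bijective (fun z : {q : G ⧸ P // q.out ∈ H} × P =>
    (⟨z.1.1.out * (z.2 : G), mul_mem z.1.2 (hPH z.2.2)⟩ : H)) ?_
  constructor
  · rintro ⟨⟨q, hq⟩, d⟩ ⟨⟨q', hq'⟩, d'⟩ heq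
    have h1 : q.out * (d : G) = q'.out * (d' : G) := congrArg Subtype.val heq
    have h2 : q = q' := by
      have h3 : ((q.out * (d : G) : G) : G ⧸ P) = ((q'.out * (d' : G) : G) : G ⧸ P) := by rw [h1]
      rw [QuotientGroup.mk_mul_of_mem _ d.2, QuotientGroup.mk_mul_of_mem _ d'.2, QuotientGroup.out_eq',
        QuotientGroup.out_eq'] at h3
      exact h3
    subst h2
    have h4 : d = d' := Subtype.ext (mul_left_cancel h1)
    rw [h4]
  · rintro ⟨h, hh⟩
    have h1 : ((h : G ⧸ P).out)⁻¹ * h ∈ P := by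
      rw [← QuotientGroup.eq, QuotientGroup.out_eq']
    have h2 : (h : G ⧸ P).out ∈ H := by
      have : (h : G ⧸ P).out = h * (((h : G ⧸ P).out)⁻¹ * h)⁻¹ := by group
      rw [this]
      exact mul_mem hh (inv_mem (hPH h1))
    exact ⟨(⟨(h : G ⧸ P), h2⟩, ⟨_, h1⟩), Subtype.ext (by simp)⟩

end count

section lower

variable {M : Ideal AlgInt} {G : Type*} [Group G] [Fintype G] {p : ℕ} [hp : Fact p.Prime]
  [hMax : M.IsMaximal] [hch : CharP (KM M) p] {u : G}

theorem cyc_act (hu : orderOf u = p) {t : G} (ht : t ∈ Subgroup.normalizer (Subgroup.zpowers u : Set G)) :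
    ∃ n : ℕ, t * u * t⁻¹ = u ^ n := by
  obtain ⟨i, hi⟩ := exists_exp hu ht
  exact ⟨i.val, hi⟩

/-- the lower bound for the rank when the defect group is a Sylow subgroup of order p -/
theorem lower_p (hM : IsPModular p M) {B : Set (IrrCharacter G)} (hB : IsPBlock M B) (hu : orderOf u = p)
    (hidx : ¬ p ∣ (Subgroup.zpowers u).index) {E : MonoidAlgebra (KM M) G}
    (hP : BP p (epG M B) (Subgroup.zpowers u) E) (htop : KG.Top p (Subgroup.zpowers u) E) :
    (Ce (Subgroup.zpowers u)).relIndex (Nf (Subgroup.zpowers u) E) ≤ blockRank p B := by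
  classical
  have hc : IsCyclic (Subgroup.zpowers u) := inferInstance
  have hE := hP.be
  have hzC : Subgroup.zpowers u ≤ Ce (Subgroup.zpowers u) := by
    rw [Subgroup.zpowers_le]; exact (uc u).2
  have hCH : Ce (Subgroup.zpowers u) ≤ Nf (Subgroup.zpowers u) E := by
    intro c hc'
    rw [mem_Nf]
    exact ⟨Ce_le_Nm _ hc', hE.mem.2 c hc'⟩
  have hPH := hzC.trans hCH
  set n := (Finset.univ.filter fun q : G ⧸ (Subgroup.zpowers u) => q.out ∈ Nf (Subgroup.zpowers u) E).card with hn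
  have hnp : ((n : ℕ) : KM M) ≠ 0 := by
    intro h0
    rw [CharP.cast_eq_zero_iff (KM M) p] at h0
    have h1 := card_out hPH
    rw [← hn] at h1
    have h2 : n * Nat.card (Subgroup.zpowers u) ∣ (Subgroup.zpowers u).index * Nat.card (Subgroup.zpowers u) := by
      rw [h1, Subgroup.index_mul_card]; exact Subgroup.card_subgroup_dvd_card _
    exact hidx (h0.trans (Nat.dvd_of_mul_dvd_mul_right Nat.card_pos h2))
  have hcnj : ∀ g ∈ Nf (Subgroup.zpowers u) E, KG.cnj g E = E := fun g hg => (mem_Nf.1 hg).2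
  have hfa : E = cos (Subgroup.zpowers u) (fun g => if g ∈ Nf (Subgroup.zpowers u) E then
      KG.cnj g (((n : ℕ) : KM M)⁻¹ • E) else 0) := by
    unfold cos
    have h1 : ∀ q : G ⧸ Subgroup.zpowers u, (if q.out ∈ Nf (Subgroup.zpowers u) E then
        KG.cnj q.out (((n : ℕ) : KM M)⁻¹ • E) else 0) =
        if q.out ∈ Nf (Subgroup.zpowers u) E then ((n : ℕ) : KM M)⁻¹ • E else 0 := by
      intro q
      split_ifs with hq
      · rw [map_smul, hcnj _ hq]
      · rfl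
    rw [Finset.sum_congr rfl fun q _ => h1 q, ← Finset.sum_filter, Finset.sum_const, ← hn, ← Nat.cast_smul_eq_nsmul (KM M),
      smul_smul, mul_inv_cancel₀ hnp, one_smul]
  have hHn : ∀ h ∈ Nf (Subgroup.zpowers u) E, ∃ m : ℕ, h * u * h⁻¹ = u ^ m := fun h hh =>
    cyc_act hu (mem_Nf.1 hh).1
  have huH : u ∈ Nf (Subgroup.zpowers u) E := hPH (Subgroup.mem_zpowers u)
  have has : Supp (Nf (Subgroup.zpowers u) E) (((n : ℕ) : KM M)⁻¹ • E) := (hE.mem.1.mono hCH).smul _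
  refine Cyg.lower hM hB hP htop hc (Subgroup.mem_zpowers u) hu (LE.refl _ _)
    (a := ((n : ℕ) : KM M)⁻¹ • E) (z := sg u - 1) ?_ ?_ (nz_sub_one huH hHn) ?_ ?_
  · intro g hg
    rw [map_smul, hcnj g (hPH hg)]
  · exact hfa
  · exact ⟨p, by rw [nilp_sub_one (by rw [← hu]; exact pow_orderOf_eq_one u), zero_mul]⟩
  · intro J
    refine ss_one hPH has hE.idem hfa ?_
    intro d hd
    refine sub_one_dvd huH ?_
    obtain ⟨i, rfl⟩ := (mem_zpowers_iff hu d).1 hd
    exact ⟨i.val, rfl⟩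

end lower

end Cfsg.Agent.H25.Cym
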