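import Mathlib
import Cfsg.Agent.H25_Cym

/-!
H25_Cyn: the structure of a block whose defect group is a Sylow subgroup of order p.
-/

set_option autoImplicit false
set_option linter.unusedSectionVars false

open scoped ComplexConjugate

namespace Cfsg.Agent.H25.Cyn

open Cfsg Cfsg.Agent.H3.CharIrr Cfsg.Agent.H3.CharComplete Cfsg.Agent.H3.CharBasic
  Cfsg.Agent.H10.BlockLoc Cfsg.Agent.H10.BlockAlg Cfsg.Agent.H10.BlockIdem Cfsg.Agent.H10.BlockDefect
  Cfsg.Agent.H10.Char Cfsg.Agent.H10.PPart Cfsg.Agent.H10.BlockMain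
  Cfsg.Agent.H25.IndCong Cfsg.Agent.H25.Sub Cfsg.Agent.H25.Sub2 Cfsg.Agent.H25.Sub7 Cfsg.Agent.H25.Cyh Cfsg.Agent.H25.Cyi
  Cfsg.Agent.H25.Cyj Cfsg.Agent.H25.Cyl Cfsg.Agent.H25.Cym
  Cfsg.Agent.H25.Red Cfsg.Agent.H25.KG Cfsg.Agent.H25.BPTr Cfsg.Agent.H25.BPMain Cfsg.Agent.H25.BPDef
  Cfsg.Agent.H25.Fus Cfsg.Agent.H25.Nilp Cfsg.Agent.H25.NilpAb Cfsg.Agent.H25.FMT Cfsg.Agent.H25.Cyk
  Cfsg.Agent.H9.BrVec Cfsg.Agent.H9.BrMain

section transport

variable {p : ℕ} {M : Ideal AlgInt} {G : Type*} [Group G] [Fintype G] [hp : Fact p.Prime]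
  {C : Subgroup G} [Fintype C] {x : G}

theorem bp_form [Fintype (IrrCharacter C)] (hC : C = Subgroup.centralizer ({x} : Set G)) (b : Set (IrrCharacter C))
    [DecidablePred (· ∈ b)] (χ : IrrCharacter G) (xc : C) (hxc : (xc : G) = x) (y : C) :
    blockPart b (fun c : C => (χ : G → ℂ) (x * (c : G))) y =
      ∑ φ : IrrCharacter C, if φ ∈ b then (aa C χ φ : ℂ) * (φ : C → ℂ) (xc * y) else 0 := by
  subst hC
  classical
  haveI : Fintype (IrrCharacter G) := Fintype.ofFinite _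
  have h1 := bp_eq b χ y
  unfold bp at h1
  rw [h1]
  have h2 : xc = zz x := Subtype.ext hxc
  refine Finset.sum_congr rfl fun φ _ => ?_
  by_cases hφ : φ ∈ b
  · rw [if_pos hφ, if_pos hφ, h2, central_mul zz_comm, mul_assoc]; rfl
  · rw [if_neg hφ, if_neg hφ]

theorem sec_zero' (hM : IsPModular p M) (hC : C = Subgroup.centralizer ({x} : Set G)) (hx : ∃ k : ℕ, orderOf x = p ^ k)
    {b : Set (IrrCharacter C)} {B : Set (IrrCharacter G)} (hb : IsInducedBlock M C b B) {χ : IrrCharacter G}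
    (hχ : χ ∉ B) (y : C) (hy : ¬ p ∣ orderOf y) : blockPart b (fun c : C => (χ : G → ℂ) (x * (c : G))) y = 0 := by
  subst hC
  haveI : Fintype (IrrCharacter G) := Fintype.ofFinite _
  haveI : Fintype (IrrCharacter (Subgroup.centralizer ({x} : Set G))) := Fintype.ofFinite _
  exact sec_zero hM hx hb hχ y hy

theorem sec_ne' (hM : IsPModular p M) (hC : C = Subgroup.centralizer ({x} : Set G)) (hx : ∃ k : ℕ, orderOf x = p ^ k)
    {b : Set (IrrCharacter C)} {B : Set (IrrCharacter G)} (hb : IsInducedBlock M C b B)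
    (hmaj : blockDefect p b = blockDefect p B) {χ : IrrCharacter G}
    (hχ : χ ∈ B) : ∃ y : C, ¬ p ∣ orderOf y ∧ blockPart b (fun c : C => (χ : G → ℂ) (x * (c : G))) y ≠ 0 := by
  subst hC
  classical
  haveI : Fintype (IrrCharacter G) := Fintype.ofFinite _
  haveI : Fintype (IrrCharacter (Subgroup.centralizer ({x} : Set G))) := Fintype.ofFinite _
  by_contra hcon
  push Not at hcon
  apply maj_diag_ne hM hx hb hmaj hχ
  unfold NN mm
  rw [Finset.sum_eq_zero, mul_zero, mul_zero]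
  intro y _
  by_cases hy : p ∣ orderOf y
  · rw [if_pos hy]
  · rw [if_neg hy]
    have : bp x b (χ : G → ℂ) y = 0 := hcon y hy
    rw [this, zero_mul]

end transport

section lin

variable {p : ℕ} {G : Type*} [Group G] [Fintype G]

/-- the rank of a block and the relations on p-regular elements -/
theorem rank_add {B : Set (IrrCharacter G)} {J : Type*} [Fintype J] (v : J → IrrCharacter G → ℂ)
    (hrel : ∀ j g, ¬ p ∣ orderOf g → ∑ᶠ χ ∈ B, v j χ * (χ : G → ℂ) g = 0)
    (hind : ∀ c : J → ℂ, (∀ χ ∈ B, ∑ j, c j * v j χ = 0) → ∀ j, c j = 0) :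
    blockRank p B + Fintype.card J ≤ Nat.card B := by
  classical
  haveI : Fintype B := Fintype.ofFinite _
  let T : (B → ℂ) →ₗ[ℂ] (G → ℂ) :=
    { toFun := fun c => ∑ χ : B, c χ • pRegularPart p ((χ : IrrCharacter G) : G → ℂ)
      map_add' := fun a c => by simp only [Pi.add_apply, add_smul, Finset.sum_add_distrib]
      map_smul' := fun a c => by simp only [Pi.smul_apply, smul_eq_mul, mul_smul, Finset.smul_sum, RingHom.id_apply] }
  have hT : ∀ c, T c = ∑ χ : B, c χ • pRegularPart p ((χ : IrrCharacter G) : G → ℂ) := fun c => rfl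
  have h1 : LinearMap.range T = Submodule.span ℂ ((fun χ : IrrCharacter G => pRegularPart p (χ : G → ℂ)) '' B) := by
    apply le_antisymm
    · rintro _ ⟨c, rfl⟩
      rw [hT]
      refine Submodule.sum_mem _ fun χ _ => Submodule.smul_mem _ _ (Submodule.subset_span ⟨χ.1, χ.2, rfl⟩)
    · rw [Submodule.span_le]
      rintro _ ⟨χ, hχ, rfl⟩
      refine ⟨Pi.single ⟨χ, hχ⟩ 1, ?_⟩
      rw [hT, Finset.sum_eq_single ⟨χ, hχ⟩]
      · rw [Pi.single_eq_same, one_smul]
      · intro ψ _ hne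
        rw [Pi.single_eq_of_ne hne, zero_smul]
      · intro h; exact absurd (Finset.mem_univ _) h
  have h2 := LinearMap.finrank_range_add_finrank_ker T
  rw [h1, Module.finrank_fintype_fun_eq_card, ← Nat.card_eq_fintype_card] at h2
  have h3 : Module.finrank ℂ (Submodule.span ℂ ((fun χ : IrrCharacter G => pRegularPart p (χ : G → ℂ)) '' B)) =
      blockRank p B := rfl
  rw [h3] at h2
  let U : (J → ℂ) →ₗ[ℂ] LinearMap.ker T :=
    LinearMap.codRestrict (LinearMap.ker T)
      { toFun := fun c (χ : B) => ∑ j, c j * v j χ.1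
        map_add' := fun a c => by
          funext χ
          simp only [Pi.add_apply, add_mul, Finset.sum_add_distrib]
        map_smul' := fun a c => by
          funext χ
          simp only [Pi.smul_apply, smul_eq_mul, mul_assoc, Finset.mul_sum, RingHom.id_apply] } (by
      intro c
      rw [LinearMap.mem_ker, hT]
      funext g
      rw [Finset.sum_apply]
      show ∑ χ : B, (∑ j, c j * v j χ.1) * pRegularPart p ((χ : IrrCharacter G) : G → ℂ) g = 0
      by_cases hg : p ∣ orderOf g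
      · apply Finset.sum_eq_zero
        intro χ _
        unfold pRegularPart
        rw [if_neg (show ¬ IsPRegular p g from not_not.2 hg), mul_zero]
      · have h4 : ∀ χ : B, (∑ j, c j * v j χ.1) * pRegularPart p ((χ : IrrCharacter G) : G → ℂ) g =
            ∑ j, c j * (v j χ.1 * ((χ : IrrCharacter G) : G → ℂ) g) := by
          intro χ
          unfold pRegularPart
          rw [if_pos (show IsPRegular p g from hg), Finset.sum_mul]
          refine Finset.sum_congr rfl fun j _ => by ring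
        rw [Finset.sum_congr rfl fun χ _ => h4 χ, Finset.sum_comm]
        apply Finset.sum_eq_zero
        intro j _
        rw [← Finset.mul_sum]
        have h5 := hrel j g hg
        rw [finsum_mem_eq_finite_toFinset_sum _ (Set.toFinite B)] at h5
        have h6 : ∑ χ : B, v j χ.1 * ((χ : IrrCharacter G) : G → ℂ) g =
            ∑ χ ∈ (Set.toFinite B).toFinset, v j χ * (χ : G → ℂ) g := by
          refine Finset.sum_bij (fun (χ : B) _ => χ.1) ?_ ?_ ?_ ?_
          · intro χ _; rw [Set.Finite.mem_toFinset]; exact χ.2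
          · intro a _ c _ h; exact Subtype.ext h
          · intro χ hχ
            rw [Set.Finite.mem_toFinset] at hχ
            exact ⟨⟨χ, hχ⟩, Finset.mem_univ _, rfl⟩
          · intro χ _; rfl
        rw [h6, h5, mul_zero])
  have hU : Function.Injective U := by
    rw [injective_iff_map_eq_zero]
    intro c hc
    funext j
    refine hind c (fun χ hχ => ?_) j
    have := congrArg (fun w : LinearMap.ker T => (w : B → ℂ) ⟨χ, hχ⟩) hc
    exact this
  have h4 := LinearMap.finrank_le_finrank_of_injective hU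
  rw [Module.finrank_fintype_fun_eq_card] at h4
  omega

end lin

section blk

variable {M : Ideal AlgInt} {G : Type*} [Group G] [Fintype G] {p : ℕ} [hp : Fact p.Prime]
  {u : G} {b : Set (IrrCharacter (Ce (Subgroup.zpowers u)))} {θ : ZMod p → IrrCharacter (Ce (Subgroup.zpowers u))}
  {B : Set (IrrCharacter G)}

theorem cen_eq (hu : orderOf u = p) {i : ZMod p} (hi : i ≠ 0) :
    Ce (Subgroup.zpowers u) = Subgroup.centralizer ({zp p u i} : Set G) := by
  have h1 : Subgroup.zpowers (zp p u i) = Subgroup.zpowers u := by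
    have h2 : Subgroup.zpowers (zp p u i) ≤ Subgroup.zpowers u := by
      rw [Subgroup.zpowers_le]; unfold zp; exact Subgroup.pow_mem _ (Subgroup.mem_zpowers u) _
    refine Subgroup.eq_of_le_of_card_ge h2 ?_
    rw [Nat.card_zpowers, Nat.card_zpowers, zp_order' hu hi, hu]
  rw [← AbSec.Ce_zp, h1]

/-- the block part of a section -/
theorem bp_dd [Fintype (Ce (Subgroup.zpowers u))] (hu : orderOf u = p) (hf : Fam p u b θ) (χ : IrrCharacter G)
    {i : ZMod p} (hi : i ≠ 0) (y : Ce (Subgroup.zpowers u)) (hy : ¬ p ∣ orderOf y) :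
    blockPart b (fun c : Ce (Subgroup.zpowers u) => (χ : G → ℂ) (zp p u i * (c : G))) y =
      Cyh.dd (mm0 θ) χ i * (θ 0 : Ce (Subgroup.zpowers u) → ℂ) y := by
  classical
  haveI : Fintype (IrrCharacter (Ce (Subgroup.zpowers u))) := Fintype.ofFinite _
  rw [bp_form (cen_eq hu hi) b χ ⟨zp p u i, zp_mem_Ce i⟩ rfl y, ← Finset.sum_filter]
  unfold Cyh.dd
  rw [Finset.sum_mul]
  symm
  refine Finset.sum_bij (fun (a : ZMod p) _ => θ a) ?_ ?_ ?_ ?_
  · intro a _; exact Finset.mem_filter.2 ⟨Finset.mem_univ _, hf.mem a⟩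
  · intro a _ a' _ h; exact hf.inj h
  · intro φ hφ
    obtain ⟨a, ha⟩ := hf.surj φ (Finset.mem_filter.1 hφ).2
    exact ⟨a, Finset.mem_univ _, ha⟩
  · intro a _
    rw [hf.val a i y _ (by rw [Subgroup.orderOf_coe]; exact hy) rfl]
    have : (mm0 θ χ a : ℂ) = (aa (Ce (Subgroup.zpowers u)) χ (θ a) : ℂ) := by
      unfold mm0
      congr 1
      convert rfl
    rw [this]; ring

theorem dd_out (hM : IsPModular p M) (hu : orderOf u = p) (hf : Fam p u b θ)
    (hind : IsInducedBlock M (Ce (Subgroup.zpowers u)) b B) {χ : IrrCharacter G} (hχ : χ ∉ B)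
    {i : ZMod p} (hi : i ≠ 0) : Cyh.dd (mm0 θ) χ i = 0 := by
  haveI : Fintype (Ce (Subgroup.zpowers u)) := Fintype.ofFinite _
  have h1r : ¬ p ∣ orderOf (1 : Ce (Subgroup.zpowers u)) := by
    rw [orderOf_one]; exact fun h => hp.out.one_lt.ne' (Nat.dvd_one.1 h)
  have h1 := bp_dd hu hf χ hi 1 h1r
  rw [sec_zero' hM (cen_eq hu hi) (zp_ord hu i) hind hχ 1 h1r] at h1
  rcases mul_eq_zero.1 h1.symm with h | h
  · exact h
  · exact absurd h (IsIrr.one_ne_zero (θ 0).2)

theorem dd_ne (hM : IsPModular p M) (hu : orderOf u = p) (hf : Fam p u b θ)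
    (hind : IsInducedBlock M (Ce (Subgroup.zpowers u)) b B) (hmaj : blockDefect p b = blockDefect p B)
    {χ : IrrCharacter G} (hχ : χ ∈ B) {i : ZMod p} (hi : i ≠ 0) : Cyh.dd (mm0 θ) χ i ≠ 0 := by
  haveI : Fintype (Ce (Subgroup.zpowers u)) := Fintype.ofFinite _
  obtain ⟨y, hy, hne⟩ := sec_ne' hM (cen_eq hu hi) (zp_ord hu i) hind hmaj hχ
  rw [bp_dd hu hf χ hi y hy] at hne
  exact left_ne_zero_of_mul hne

theorem vv_out (hM : IsPModular p M) (hu : orderOf u = p) (hf : Fam p u b θ)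
    (hind : IsInducedBlock M (Ce (Subgroup.zpowers u)) b B) {χ : IrrCharacter G} (hχ : χ ∉ B) (a : ZMod p) :
    Cyh.vv (mm0 θ) χ a = 0 := by
  have h1 := Cyh.vv_eq (mm0 θ) χ a
  rw [Finset.sum_eq_zero, mul_zero] at h1
  · exact_mod_cast h1
  · intro i _
    by_cases hi : i = 0
    · rw [hi, mul_zero, neg_zero, Cyh.ee_zero, sub_self, mul_zero]
    · rw [dd_out hM hu hf hind hχ hi, zero_mul]

theorem reg_rel [Fintype (IrrCharacter G)] (hu : orderOf u = p) (hidx : ¬ p ∣ (Subgroup.zpowers u).index)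
    (hf : Fam p u b θ) {i : ZMod p} (hi : i ≠ 0) {g : G} (hg : ¬ p ∣ orderOf g) :
    ∑ χ : IrrCharacter G, Cyh.dd (mm0 θ) χ i * (χ : G → ℂ) g = 0 := by
  classical
  have h1 : ∀ χ : IrrCharacter G, Cyh.dd (mm0 θ) χ i * (χ : G → ℂ) g =
      ∑ y : G, ((p : ℂ) * (Nat.card (Ce (Subgroup.zpowers u)) : ℂ)⁻¹ * conj (cf p u (θ 0) y)) *
        ((χ : G → ℂ) (zp p u i * y) * conj ((χ : G → ℂ) g⁻¹)) := by
    intro χ
    rw [dd_AA hu hidx hf, AA, Finset.mul_sum, Finset.sum_mul]
    refine Finset.sum_congr rfl fun y _ => ?_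
    have h2 : conj ((χ : G → ℂ) g⁻¹) = (χ : G → ℂ) g := by
      rw [IsChar.inv_eq_conj (IsIrr.isCharacter χ.2) g, Complex.conj_conj]
    rw [h2]; ring
  rw [Finset.sum_congr rfl fun χ _ => h1 χ, Finset.sum_comm]
  apply Finset.sum_eq_zero
  intro y _
  rw [← Finset.mul_sum]
  by_cases hy : cf p u (θ 0) y = 0
  · rw [hy]; simp
  · obtain ⟨h2, h3⟩ := cf_supp (θ 0) i y hy
    rw [orth2, if_neg, mul_zero]
    intro hc
    have h4 : p ∣ orderOf (zp p u i * y) := by
      rw [h3.orderOf_mul_eq_mul_orderOf_of_coprime]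
      · rw [zp_order' hu hi]; exact Dvd.intro _ rfl
      · rw [zp_order' hu hi]; exact (hp.out.coprime_iff_not_dvd).2 h2
    have h5 : orderOf (zp p u i * y) = orderOf g⁻¹ := by
      obtain ⟨t, ht⟩ := isConj_iff.1 hc
      rw [← ht, orderOf_conj]
    rw [h5, orderOf_inv] at h4
    exact hg h4

theorem vv_rel [Fintype (IrrCharacter G)] (hu : orderOf u = p) (hidx : ¬ p ∣ (Subgroup.zpowers u).index)
    (hf : Fam p u b θ) (a : ZMod p) {g : G} (hg : ¬ p ∣ orderOf g) :
    ∑ χ : IrrCharacter G, (Cyh.vv (mm0 θ) χ a : ℂ) * (χ : G → ℂ) g = 0 := by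
  have h1 : ∀ χ : IrrCharacter G, (Cyh.vv (mm0 θ) χ a : ℂ) * (χ : G → ℂ) g =
      ∑ i : ZMod p, ((p : ℂ)⁻¹ * (1 - Cyh.ee (-(a * i)))) * (Cyh.dd (mm0 θ) χ i * (χ : G → ℂ) g) := by
    intro χ
    rw [Cyh.vv_eq, Finset.mul_sum, Finset.sum_mul]
    refine Finset.sum_congr rfl fun i _ => by ring
  rw [Finset.sum_congr rfl fun χ _ => h1 χ, Finset.sum_comm]
  apply Finset.sum_eq_zero
  intro i _
  rw [← Finset.mul_sum]
  by_cases hi : i = 0
  · rw [hi, mul_zero, neg_zero, Cyh.ee_zero, sub_self]; ring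
  · rw [reg_rel hu hidx hf hi hg, mul_zero]

theorem vv_rel' (hM : IsPModular p M) (hu : orderOf u = p) (hidx : ¬ p ∣ (Subgroup.zpowers u).index)
    (hf : Fam p u b θ) (hind : IsInducedBlock M (Ce (Subgroup.zpowers u)) b B) (a : ZMod p) {g : G} (hg : ¬ p ∣ orderOf g) :
    ∑ᶠ χ ∈ B, (Cyh.vv (mm0 θ) χ a : ℂ) * (χ : G → ℂ) g = 0 := by
  classical
  haveI : Fintype (IrrCharacter G) := Fintype.ofFinite _
  rw [finsum_mem_eq_finite_toFinset_sum _ (Set.toFinite B), ← vv_rel hu hidx hf a hg]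
  refine Finset.sum_subset (Finset.subset_univ _) fun χ _ hχ => ?_
  rw [Set.Finite.mem_toFinset] at hχ
  rw [vv_out hM hu hf hind hχ]; simp

end blk

end Cfsg.Agent.H25.Cyn
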