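import Mathlib
import Cfsg.Agent.H25_Cyn

/-!
H25_Cyo: the structure theorem for blocks with cyclic defect group, assembled.
-/

set_option autoImplicit false
set_option linter.unusedSectionVars false

open scoped ComplexConjugate

namespace Cfsg.Agent.H25.Cyo

open Cfsg Cfsg.Agent.H3.CharIrr Cfsg.Agent.H3.CharComplete Cfsg.Agent.H3.CharBasic
  Cfsg.Agent.H10.BlockLoc Cfsg.Agent.H10.BlockAlg Cfsg.Agent.H10.BlockIdem Cfsg.Agent.H10.BlockDefect
  Cfsg.Agent.H10.Char Cfsg.Agent.H10.PPart Cfsg.Agent.H10.BlockMain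
  Cfsg.Agent.H25.IndCong Cfsg.Agent.H25.Sub Cfsg.Agent.H25.Sub2 Cfsg.Agent.H25.Sub7 Cfsg.Agent.H25.Cyh Cfsg.Agent.H25.Cyi
  Cfsg.Agent.H25.Cyj Cfsg.Agent.H25.Cyl Cfsg.Agent.H25.Cym Cfsg.Agent.H25.Cyn
  Cfsg.Agent.H25.Red Cfsg.Agent.H25.KG Cfsg.Agent.H25.BPTr Cfsg.Agent.H25.BPMain Cfsg.Agent.H25.BPDef
  Cfsg.Agent.H25.Fus Cfsg.Agent.H25.Nilp Cfsg.Agent.H25.NilpAb Cfsg.Agent.H25.FMT Cfsg.Agent.H25.Cyk
  Cfsg.Agent.H9.BrVec Cfsg.Agent.H9.BrMain

section finish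

variable {p : ℕ} {G : Type*} [Group G] [Fintype G] [hp : Fact p.Prime] {q : ℕ} [NeZero q]

/-- from the Gram matrix and the lower bound on the rank to the structure of the block -/
theorem finish {B : Set (IrrCharacter G)} (mu : IrrCharacter G → ZMod q → ℕ) (H : Subgroup (ZMod q)ˣ) (hq : 1 < q)
    (hfree : ∀ h ∈ H, ∀ i : ZMod q, i ≠ 0 → (h : ZMod q) * i = i → h = 1)
    (hK : ∀ i j : ZMod q, i ≠ 0 → j ≠ 0 → ((∃ h ∈ H, j = (h : ZMod q) * i) →
      ∑ᶠ χ ∈ B, dd mu χ i * conj (dd mu χ j) = (q : ℂ)) ∧ ((¬ ∃ h ∈ H, j = (h : ZMod q) * i) →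
      ∑ᶠ χ ∈ B, dd mu χ i * conj (dd mu χ j) = 0))
    (hinv : ∀ χ ∈ B, ∀ h ∈ H, ∀ i : ZMod q, i ≠ 0 → dd mu χ ((h : ZMod q) * i) = dd mu χ i)
    (hne : ∀ χ ∈ B, ∀ i : ZMod q, i ≠ 0 → dd mu χ i ≠ 0)
    (hrank : Nat.card H ≤ blockRank p B)
    (hrel : ∀ (a : ZMod q) (g : G), ¬ p ∣ orderOf g → ∑ᶠ χ ∈ B, (vv mu χ a : ℂ) * (χ : G → ℂ) g = 0) :
    ∃ (X Y : Finset (IrrCharacter G)) (δ : IrrCharacter G → ℤ) (ε : ℤ) (L : Orb H → IrrCharacter G),
      (∀ χ, χ ∈ B ↔ χ ∈ X ∨ χ ∈ Y) ∧ Disjoint X Y ∧ X.card = Nat.card H ∧ Y.card = Nat.card (Orb H) ∧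
      (∀ χ ∈ X, (δ χ = 1 ∨ δ χ = -1) ∧ ∀ a : ZMod q, a ≠ 0 → vv mu χ a = δ χ) ∧ (ε = 1 ∨ ε = -1) ∧
      Function.Injective L ∧ (∀ χ, χ ∈ Y ↔ ∃ o, L o = χ) ∧
      (∀ o (x : {x : ZMod q // x ≠ 0}), om H x = o → vv mu (L o) x.1 = -ε) ∧
      (∀ o (x : {x : ZMod q // x ≠ 0}), om H x ≠ o → vv mu (L o) x.1 = 0) ∧
      (∀ o g, ¬ p ∣ orderOf g → (ε : ℂ) * (L o : G → ℂ) g = ∑ χ ∈ X, (δ χ : ℂ) * (χ : G → ℂ) g) := by
  classical
  haveI : Fintype (Orb H) := Fintype.ofFinite _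
  set S := (Set.toFinite B).toFinset with hS
  have hSm : ∀ χ, χ ∈ S ↔ χ ∈ B := fun χ => by rw [hS, Set.Finite.mem_toFinset]
  have hsum : ∀ F : IrrCharacter G → ℂ, ∑ᶠ χ ∈ B, F χ = ∑ χ ∈ S, F χ := fun F =>
    finsum_mem_eq_finite_toFinset_sum _ (Set.toFinite B)
  simp only [hsum] at hK hrel
  have hScard : S.card = Nat.card B := by
    rw [hS, ← Set.ncard_eq_toFinset_card]; rfl
  haveI : Nontrivial (ZMod q) := by
    haveI : Fact (1 < q) := ⟨hq⟩
    infer_instance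
  haveI : Nonempty (Orb H) := ⟨om H ⟨1, one_ne_zero⟩⟩
  have hne' : ∀ χ ∈ S, ∃ a : ZMod q, vv mu χ a ≠ 0 := by
    intro χ hχ
    by_contra hcon
    push Not at hcon
    apply hne χ ((hSm χ).1 hχ) 1 one_ne_zero
    rw [dd_eq_vv mu χ one_ne_zero, Finset.sum_eq_zero, neg_zero]
    intro a _
    rw [hcon a]; simp
  have hK' : ∀ i j : ZMod q, i ≠ 0 → j ≠ 0 → ∑ χ ∈ S, dd mu χ i * conj (dd mu χ j) =
      if (∃ h ∈ H, j = (h : ZMod q) * i) then (q : ℂ) else 0 := by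
    intro i j hi hj
    split_ifs with h
    · exact (hK i j hi hj).1 h
    · exact (hK i j hi hj).2 h
  have hgr : ∀ i j : Orb H, ∑ χ ∈ S, vv mu χ (rp H i).1 * vv mu χ (rp H j).1 =
      (Nat.card H : ℤ) + if i = j then 1 else 0 := by
    intro i j
    rw [gram mu S H hfree hK' (rp H i).2 (rp H j).2]
    congr 1
    by_cases hij : i = j
    · rw [if_pos hij, if_pos]
      rw [← om_eq, om_rp, om_rp]; exact hij
    · rw [if_neg hij, if_neg]
      rw [← om_eq, om_rp, om_rp]; exact hij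
  have hcard : Nat.card H + Nat.card (Orb H) ≤ S.card := by
    rw [hScard]
    refine le_trans ?_ (rank_add (p := p) (B := B) (J := Orb H) (fun j χ => (vv mu χ (rp H j).1 : ℂ)) ?_ ?_)
    · rw [Nat.card_eq_fintype_card (α := Orb H)]
      omega
    · intro j g hg
      rw [hsum]; exact hrel _ g hg
    · intro c hc i
      have h1 : ∀ i : Orb H, (Nat.card H : ℂ) * ∑ j, c j + c i = 0 := by
        intro i
        have h2 : ∑ χ ∈ S, (vv mu χ (rp H i).1 : ℂ) * ∑ j, c j * (vv mu χ (rp H j).1 : ℂ) = 0 :=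
          Finset.sum_eq_zero fun χ hχ => by rw [hc χ ((hSm χ).1 hχ), mul_zero]
        have h3 : ∑ χ ∈ S, (vv mu χ (rp H i).1 : ℂ) * ∑ j, c j * (vv mu χ (rp H j).1 : ℂ) =
            ∑ j, c j * ((Nat.card H : ℂ) + if i = j then 1 else 0) := by
          simp only [Finset.mul_sum]
          rw [Finset.sum_comm]
          refine Finset.sum_congr rfl fun j _ => ?_
          have h4 := congrArg (fun z : ℤ => (z : ℂ)) (hgr i j)
          simp only [Int.cast_add, Int.cast_sum, Int.cast_mul, Int.cast_natCast] at h4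
          have h5 : (((if i = j then 1 else 0 : ℤ)) : ℂ) = if i = j then 1 else 0 := by
            split_ifs <;> simp
          rw [h5] at h4
          rw [← h4, Finset.mul_sum]
          refine Finset.sum_congr rfl fun χ _ => by ring
        rw [h3] at h2
        simp only [mul_add, Finset.sum_add_distrib, ← Finset.sum_mul, mul_ite, mul_one, mul_zero] at h2
        rw [Finset.sum_ite_eq Finset.univ i, if_pos (Finset.mem_univ _)] at h2
        rw [mul_comm]; exact h2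
      have h2 : ∑ i : Orb H, ((Nat.card H : ℂ) * ∑ j, c j + c i) = 0 := Finset.sum_eq_zero fun i _ => h1 i
      rw [Finset.sum_add_distrib, Finset.sum_const, Finset.card_univ, nsmul_eq_mul] at h2
      have h3 : ((Fintype.card (Orb H) : ℂ) * Nat.card H + 1) * ∑ j, c j = 0 := by
        linear_combination h2
      have h4 : ((Fintype.card (Orb H) : ℂ) * Nat.card H + 1) ≠ 0 := by
        have : ((Fintype.card (Orb H) * Nat.card H + 1 : ℕ) : ℂ) ≠ 0 := Nat.cast_ne_zero.2 (Nat.succ_ne_zero _)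
        push_cast at this
        exact this
      have h5 : ∑ j, c j = 0 := (mul_eq_zero.1 h3).resolve_left h4
      have h6 := h1 i
      rw [h5, mul_zero, zero_add] at h6
      exact h6
  obtain ⟨X, Y, δ, L, s, hXY, hdis, hXc, hYc, hδ, hLinj, hLY, hs, hL1, hL2⟩ :=
    structure_thm mu S H hq hfree (fun i j hi hj => hK i j hi hj)
      (fun χ hχ => hinv χ ((hSm χ).1 hχ)) hne' hcard
  have hmem : ∀ χ, χ ∈ B ↔ χ ∈ X ∨ χ ∈ Y := by
    intro χ
    rw [← Finset.mem_union, hXY, hSm]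
  have hYsum : ∀ F : IrrCharacter G → ℂ, ∑ χ ∈ Y, F χ = ∑ j, F (L j) := by
    intro F
    have : Y = Finset.univ.image L := by
      ext y; rw [hLY, Finset.mem_image]; simp
    rw [this, Finset.sum_image fun a _ b _ h => hLinj h]
  have hrel' : ∀ j g, ¬ p ∣ orderOf g → ∑ χ ∈ X, (δ χ : ℂ) * (χ : G → ℂ) g + (s j : ℂ) * (L j : G → ℂ) g = 0 := by
    intro j g hg
    have h1 := hrel (rp H j).1 g hg
    rw [← hXY, Finset.sum_union hdis, hYsum, Finset.sum_eq_single j] at h1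
    · rw [← h1]
      congr 1
      · refine Finset.sum_congr rfl fun χ hχ => ?_
        rw [(hδ χ hχ).2 _ (rp H j).2]
      · rw [hL1 j (rp H j) (om_rp H j)]
    · intro i _ hi
      rw [hL2 i (rp H j) (by rw [om_rp]; exact hi.symm)]; simp
    · intro h; exact absurd (Finset.mem_univ _) h
  have h1p : ¬ p ∣ orderOf (1 : G) := by
    rw [orderOf_one]; intro h; exact hp.out.one_lt.ne' (Nat.dvd_one.1 h)
  have hsconst : ∀ i j, s i = s j := by
    intro i j
    have hi := hrel' i 1 h1p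
    have hj := hrel' j 1 h1p
    obtain ⟨n, hn0, hn⟩ := irr_one (L i).2
    obtain ⟨m, hm0, hm⟩ := irr_one (L j).2
    rw [hn] at hi
    rw [hm] at hj
    have h1 : (s i : ℂ) * n = (s j : ℂ) * m := by linear_combination hi - hj
    have h2 : s i * n = s j * m := by exact_mod_cast h1
    rcases hs i with h | h <;> rcases hs j with h' | h' <;> rw [h, h'] at h2 ⊢ <;> omega
  obtain ⟨j0⟩ := ‹Nonempty (Orb H)›
  refine ⟨X, Y, δ, -s j0, L, hmem, hdis, hXc, hYc, hδ, ?_, hLinj, hLY, ?_, hL2, ?_⟩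
  · rcases hs j0 with h | h
    · right; rw [h]
    · left; rw [h]; norm_num
  · intro o x hx
    rw [neg_neg, ← hsconst o j0]
    exact hL1 o x hx
  · intro o g hg
    have := hrel' o g hg
    rw [hsconst o j0] at this
    push_cast
    linear_combination -this

end finish

section mainp

variable {M : Ideal AlgInt} {G : Type*} [Group G] [Fintype G] {p : ℕ} [hp : Fact p.Prime]
  [hMax : M.IsMaximal] [hch : CharP (KM M) p] {u : G} {b : Set (IrrCharacter (Ce (Subgroup.zpowers u)))}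
  {B : Set (IrrCharacter G)}

/-- the stabilizer of the canonical character -/
theorem mem_Nf_stb (hcb : IsPBlock M b) {θ : ZMod p → IrrCharacter (Ce (Subgroup.zpowers u))} (hu : orderOf u = p)
    (hf : Fam p u b θ) (t : G) : t ∈ Nf (Subgroup.zpowers u) (ep M (Ce (Subgroup.zpowers u)) b) ↔
      t ∈ Subgroup.normalizer (Subgroup.zpowers u : Set G) ∧ Stb (θ 0) t := by
  rw [mem_Nf]
  apply and_congr_right
  intro ht
  have hn := norm_le_norm_Ce (Subgroup.zpowers u) ht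
  have hK : Ce (Subgroup.zpowers u) = cs t (Ce (Subgroup.zpowers u)) := (mem_normalizer_iff_cs.1 hn).symm
  haveI : Fintype (Ce (Subgroup.zpowers u)) := Fintype.ofFinite _
  constructor
  · intro h
    have h1 : StabilizesBlock (Ce (Subgroup.zpowers u)) b t := (stabilizes_iff hcb t).2 ⟨hn, h⟩
    obtain ⟨χ', hχ', hc⟩ := h1.2 (θ 0) (hf.mem 0)
    have h2 : θ 0 = χ' := by
      apply hf.eq_zero hχ'
      intro x hx
      have h3 : t⁻¹ * (x : G) * t ∈ Ce (Subgroup.zpowers u) := (nm_Ce ht).1 (by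
        have : t * (t⁻¹ * (x : G) * t) * t⁻¹ = x := by group
        rw [this]; exact x.2)
      have h4 := hc ⟨t⁻¹ * (x : G) * t, h3⟩ x (by show (x : G) = t * (t⁻¹ * (x : G) * t) * t⁻¹; group)
      have h5 := hc 1 1 (by simp)
      rw [h4, h5]
      have h6 : t⁻¹ * (x : G) * t ∈ Subgroup.zpowers u := by
        have h7 := (Subgroup.mem_normalizer_iff.1 ht (t⁻¹ * (x : G) * t)).2 (by
          have : t * (t⁻¹ * (x : G) * t) * t⁻¹ = x := by group
          rw [this]; exact hx)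
        exact h7
      obtain ⟨i, hi⟩ := (mem_zpowers_iff hu _).1 h6
      have h1r : ¬ p ∣ orderOf ((1 : Ce (Subgroup.zpowers u)) : G) := by
        rw [Subgroup.coe_one, orderOf_one]; exact fun h => hp.out.one_lt.ne' (Nat.dvd_one.1 h)
      rw [hf.val 0 i 1 ⟨t⁻¹ * (x : G) * t, h3⟩ h1r (by
        show t⁻¹ * (x : G) * t = zp p u i * ((1 : Ce (Subgroup.zpowers u)) : G)
        rw [hi, Subgroup.coe_one, mul_one]), zero_mul, Cyh.ee_zero, one_mul]
    intro c c' hcc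
    have h9 := hc c c' hcc
    rw [← h2] at h9
    exact h9
  · intro hs
    rw [← ep_conj t hK]
    have h1 : θ 0 ∈ tB (cI t hK) b := ⟨θ 0, hf.mem 0, fun k => hs k _ rfl⟩
    rw [block_eq_of_mem (isPBlock_tB (cI t hK) hcb) hcb h1 (hf.mem 0)]

theorem main_p (hM : IsPModular p M) (hB : IsPBlock M B) (hu : orderOf u = p)
    (hidx : ¬ p ∣ (Subgroup.zpowers u).index) (hPD : IsDefectGroup p M B (Subgroup.zpowers u))
    (hind : IsInducedBlock M (Ce (Subgroup.zpowers u)) b B) :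
    IsPBlock M b ∧ BP p (epG M B) (Subgroup.zpowers u) (ep M (Ce (Subgroup.zpowers u)) b) ∧
    KG.Top p (Subgroup.zpowers u) (ep M (Ce (Subgroup.zpowers u)) b) ∧
    ∃ θ : ZMod p → IrrCharacter (Ce (Subgroup.zpowers u)), Fam p u b θ ∧
      ∃ (X Y : Finset (IrrCharacter G)) (δ : IrrCharacter G → ℤ) (ε : ℤ)
      (L : Orb (HT hu (Nf (Subgroup.zpowers u) (ep M (Ce (Subgroup.zpowers u)) b))) → IrrCharacter G),
      (∀ χ, χ ∈ B ↔ χ ∈ X ∨ χ ∈ Y) ∧ Disjoint X Y ∧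
      X.card = Nat.card (HT hu (Nf (Subgroup.zpowers u) (ep M (Ce (Subgroup.zpowers u)) b))) ∧
      Y.card = Nat.card (Orb (HT hu (Nf (Subgroup.zpowers u) (ep M (Ce (Subgroup.zpowers u)) b)))) ∧
      (∀ χ ∈ X, (δ χ = 1 ∨ δ χ = -1) ∧ ∀ a : ZMod p, a ≠ 0 → vv (mm0 θ) χ a = δ χ) ∧ (ε = 1 ∨ ε = -1) ∧
      Function.Injective L ∧ (∀ χ, χ ∈ Y ↔ ∃ o, L o = χ) ∧
      (∀ o (x : {x : ZMod p // x ≠ 0}), om (HT hu (Nf (Subgroup.zpowers u) (ep M (Ce (Subgroup.zpowers u)) b))) x = o →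
        vv (mm0 θ) (L o) x.1 = -ε) ∧
      (∀ o (x : {x : ZMod p // x ≠ 0}), om (HT hu (Nf (Subgroup.zpowers u) (ep M (Ce (Subgroup.zpowers u)) b))) x ≠ o →
        vv (mm0 θ) (L o) x.1 = 0) ∧
      (∀ o g, ¬ p ∣ orderOf g → (ε : ℂ) * (L o : G → ℂ) g = ∑ χ ∈ X, (δ χ : ℂ) * (χ : G → ℂ) g) := by
  classical
  obtain ⟨hcb, hbp, htop⟩ := data hM hB hPD hind
  have hc : IsCyclic (Subgroup.zpowers u) := inferInstance
  have hzC : Subgroup.zpowers u ≤ Ce (Subgroup.zpowers u) := by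
    rw [Subgroup.zpowers_le]; exact (uc u).2
  have hne : Subgroup.zpowers u ≠ ⊥ := by
    intro h
    have : Nat.card (Subgroup.zpowers u) = 1 := by rw [h]; simp
    rw [Nat.card_zpowers, hu] at this
    exact hp.out.one_lt.ne' this
  obtain ⟨b', hb', hbb, hnil, -⟩ := Cyg.rank_cent hM hbp htop hc (LE.refl _ _) hne
  have hbb' := ep_inj hb' hcb hbb
  subst hbb'
  have hDb : IsDefectGroup p M b' ((Subgroup.zpowers u).subgroupOf (Ce (Subgroup.zpowers u))) :=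
    (defectH_iff' hM hcb hzC).2 (dgh_ab hM hbp htop (cyc_comm hc) (LE.refl _ _))
  have hmaj : blockDefect p b' = blockDefect p B := by
    haveI : Fintype (Ce (Subgroup.zpowers u)) := Fintype.ofFinite _
    have h1 := card_defectGroup hM hcb hDb
    have h2 := card_defectGroup hM hB hPD
    rw [Nat.card_congr (Subgroup.subgroupOfEquivOfLe hzC).toEquiv, h2] at h1
    exact Nat.pow_right_injective hp.out.two_le h1.symm
  obtain ⟨θ, hf⟩ := exists_fam hM hu hidx hnil hDb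
  refine ⟨hcb, hbp, htop, θ, hf, ?_⟩
  have hT := mem_Nf_stb (M := M) hcb hu hf
  set T := Nf (Subgroup.zpowers u) (ep M (Ce (Subgroup.zpowers u)) b') with hTdef
  have hTN : T ≤ Subgroup.normalizer (Subgroup.zpowers u : Set G) := fun t ht => ((hT t).1 ht).1
  haveI : Fintype (IrrCharacter G) := Fintype.ofFinite _
  refine finish (p := p) (B := B) (mm0 θ) (HT hu T) hp.out.one_lt free_HT ?_ ?_ ?_ ?_ ?_
  · intro i j hi hj
    have h1 := kernel_all hu hidx hf hT i j hi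
    have h2 : ∑ᶠ χ ∈ B, Cyh.dd (mm0 θ) χ i * conj (Cyh.dd (mm0 θ) χ j) =
        ∑ χ : IrrCharacter G, Cyh.dd (mm0 θ) χ i * conj (Cyh.dd (mm0 θ) χ j) := by
      rw [finsum_mem_eq_finite_toFinset_sum _ (Set.toFinite B)]
      refine Finset.sum_subset (Finset.subset_univ _) fun χ _ hχ => ?_
      rw [Set.Finite.mem_toFinset] at hχ
      rw [dd_out hM hu hf hind hχ hi, zero_mul]
    rw [h2]
    exact h1
  · intro χ _ h hh i _
    exact dd_inv hu hidx hf hT χ hh i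
  · intro χ hχ i hi
    exact dd_ne hM hu hf hind hmaj hχ hi
  · rw [card_HT hu hTN]
    exact lower_p hM hB hu hidx hbp htop
  · intro a g hg
    exact vv_rel' hM hu hidx hf hind a hg

end mainp

end Cfsg.Agent.H25.Cyo
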