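import Mathlib
import Cfsg.Agent.H25_Cyo

/-!
H25_Cyp: values of the nonexceptional characters.
-/

set_option autoImplicit false
set_option linter.unusedSectionVars false

open scoped ComplexConjugate

namespace Cfsg.Agent.H25.Cyp

open Cfsg Cfsg.Agent.H3.CharIrr Cfsg.Agent.H3.CharComplete Cfsg.Agent.H3.CharBasic
  Cfsg.Agent.H10.BlockLoc Cfsg.Agent.H10.BlockAlg Cfsg.Agent.H10.BlockIdem Cfsg.Agent.H10.BlockDefect
  Cfsg.Agent.H10.Char Cfsg.Agent.H10.PPart Cfsg.Agent.H10.BlockMain Cfsg.Agent.H10.BlockSMT2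
  Cfsg.Agent.H25.IndCong Cfsg.Agent.H25.Sub Cfsg.Agent.H25.Sub2 Cfsg.Agent.H25.Sub7 Cfsg.Agent.H25.Cyh Cfsg.Agent.H25.Cyi
  Cfsg.Agent.H25.Cyj Cfsg.Agent.H25.Cyl Cfsg.Agent.H25.Cym Cfsg.Agent.H25.Cyn Cfsg.Agent.H25.Cyo
  Cfsg.Agent.H25.Red Cfsg.Agent.H25.KG Cfsg.Agent.H25.BPTr Cfsg.Agent.H25.BPMain Cfsg.Agent.H25.BPDef
  Cfsg.Agent.H25.Fus Cfsg.Agent.H25.Nilp Cfsg.Agent.H25.NilpAb Cfsg.Agent.H25.FMT Cfsg.Agent.H25.Cyk
  Cfsg.Agent.H9.BrVec Cfsg.Agent.H9.BrMain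

section orbit

variable {M : Ideal AlgInt} {G : Type*} [Group G] [Fintype G] {p : ℕ} [hp : Fact p.Prime]
  [hMax : M.IsMaximal] [hch : CharP (KM M) p]

open Classical in
theorem card_orb' {P : Subgroup G} {E : MonoidAlgebra (KM M) G} (hE : IsBlk (Ce P) E) :
    (orb P E).card * Nat.card (Nf P E) = Nat.card (Nm P) := by
  rw [Nat.card_eq_fintype_card (α := Nm P), ← Finset.card_univ,
    Finset.card_eq_sum_card_fiberwise (f := fun n : Nm P => KG.cnj (n : G) E) (t := orb P E)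
      (fun n _ => (mem_orb hE).2 ⟨n, n.2, rfl⟩)]
  have h1 : ∀ f ∈ orb P E, (Finset.univ.filter fun n : Nm P => KG.cnj (n : G) E = f).card = Nat.card (Nf P E) := by
    intro f hf
    obtain ⟨n0, hn0, rfl⟩ := (mem_orb hE).1 hf
    rw [Nat.card_eq_fintype_card, ← Finset.card_univ]
    symm
    refine Finset.card_bij (fun (t : Nf P E) _ => (⟨n0 * t, mul_mem hn0 (mem_Nf.1 t.2).1⟩ : Nm P)) ?_ ?_ ?_
    · intro t _
      rw [Finset.mem_filter]
      refine ⟨Finset.mem_univ _, ?_⟩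
      show KG.cnj (n0 * (t : G)) E = KG.cnj n0 E
      rw [cnj_mul_apply, (mem_Nf.1 t.2).2]
    · intro a _ c _ hac
      exact Subtype.ext (mul_left_cancel (congrArg Subtype.val hac))
    · rintro ⟨n, hn⟩ hnf
      have h2 : KG.cnj n E = KG.cnj n0 E := (Finset.mem_filter.1 hnf).2
      refine ⟨⟨n0⁻¹ * n, mem_Nf.2 ⟨mul_mem (inv_mem hn0) hn, ?_⟩⟩, Finset.mem_univ _, Subtype.ext (by
        show n0 * (n0⁻¹ * n) = n
        group)⟩
      rw [cnj_mul_apply, h2, ← cnj_mul_apply, inv_mul_cancel, cnj_one_apply]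
  rw [Finset.sum_congr rfl h1, Finset.sum_const, smul_eq_mul]

open Classical in
theorem card_ind (hM : IsPModular p M) {B : Set (IrrCharacter G)} (hB : IsPBlock M B) {P : Subgroup G}
    {E : MonoidAlgebra (KM M) G} (hP : BP p (epG M B) P E) (htop : KG.Top p P E) [Fintype (Ce P)] :
    ((blocks (Ce P) M).filter fun b' => IsInducedBlock M (Ce P) b' B).card = (orb P E).card := by
  refine Finset.card_bij (fun b' _ => ep M (Ce P) b') ?_ ?_ ?_
  · intro b' hb'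
    rw [Finset.mem_filter] at hb'
    have h1 : IsBrauerPairOf p M B P b' := (H25.BPInd.bpo_iff_induced hM).2 ⟨hP.pg, hb'.2⟩
    obtain ⟨-, -, h3⟩ := bpo_iff.1 h1
    exact (mem_orb hP.be).2 (htop.conj_blk hP h3)
  · intro a ha c hc hac
    rw [Finset.mem_filter, mem_blocks] at ha hc
    exact ep_inj ha.1 hc.1 hac
  · intro f hf
    obtain ⟨n, hn, hnf⟩ := (mem_orb hP.be).1 hf
    have hfb := orb_blk hf
    obtain ⟨b', hb', hbf⟩ := exists_ep hfb
    refine ⟨b', ?_, hbf⟩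
    rw [Finset.mem_filter, mem_blocks]
    refine ⟨hb', ?_⟩
    have h1 : BP p (epG M B) P (ep M (Ce P) b') := by
      rw [hbf]
      refine ⟨hP.pg, hP.bB, hfb, ?_⟩
      rw [← hnf]
      have h2 := congrArg (KG.cnj n) hP.tr
      rw [map_mul] at h2
      have h3 : KG.cnj n (KG.tr (Ce P) (epG M B)) = KG.tr (Ce P) (epG M B) := by
        rw [cnj_tr, cs_Nm_Ce hn, fix_top hP.bB ⊤ n (Subgroup.mem_top n)]
      rw [h3] at h2
      exact h2
    exact ((H25.BPInd.bpo_iff_induced hM).1 (bpo_iff.2 ⟨hB, hb', h1⟩)).2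

end orbit

section val

variable {M : Ideal AlgInt} {G : Type*} [Group G] [Fintype G] {p : ℕ} [hp : Fact p.Prime]
  [hMax : M.IsMaximal] [hch : CharP (KM M) p] {u : G} {b : Set (IrrCharacter (Ce (Subgroup.zpowers u)))}
  {B : Set (IrrCharacter G)}

/-- the family attached to any block of the centralizer inducing `B` -/
theorem fam_of (hM : IsPModular p M) (hB : IsPBlock M B) (hu : orderOf u = p)
    (hidx : ¬ p ∣ (Subgroup.zpowers u).index) (hPD : IsDefectGroup p M B (Subgroup.zpowers u))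
    (hind : IsInducedBlock M (Ce (Subgroup.zpowers u)) b B) :
    ∃ θ : ZMod p → IrrCharacter (Ce (Subgroup.zpowers u)), Fam p u b θ := by
  obtain ⟨-, -, -, θ, hf, -⟩ := main_p hM hB hu hidx hPD hind
  exact ⟨θ, hf⟩

theorem ind_def {C : Subgroup G} {x : G} (hM : IsPModular p M) (hC : C = Subgroup.centralizer ({x} : Set G))
    (hx : ∃ k : ℕ, orderOf x = p ^ k) {b : Set (IrrCharacter C)} (hb : IsPBlock M b) :
    ∃ B : Set (IrrCharacter G), IsInducedBlock M C b B := by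
  subst hC
  haveI : Fintype (Subgroup.centralizer ({x} : Set G)) := Fintype.ofFinite _
  exact centralizer_induced_defined hM hx hb

theorem conj_dd (hM : IsPModular p M) (hB : IsPBlock M B) (hu : orderOf u = p)
    (hidx : ¬ p ∣ (Subgroup.zpowers u).index) (hPD : IsDefectGroup p M B (Subgroup.zpowers u))
    (hind : IsInducedBlock M (Ce (Subgroup.zpowers u)) b B) {θ : ZMod p → IrrCharacter (Ce (Subgroup.zpowers u))}
    (hf : Fam p u b θ) {b' : Set (IrrCharacter (Ce (Subgroup.zpowers u)))}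
    (hind' : IsInducedBlock M (Ce (Subgroup.zpowers u)) b' B) {θ' : ZMod p → IrrCharacter (Ce (Subgroup.zpowers u))}
    (hf' : Fam p u b' θ') (χ : IrrCharacter G) {i : ZMod p} (hi : i ≠ 0) :
    (θ' 0 : Ce (Subgroup.zpowers u) → ℂ) 1 = (θ 0 : Ce (Subgroup.zpowers u) → ℂ) 1 ∧
      ∃ j : ZMod p, j ≠ 0 ∧ Cyh.dd (mm0 θ') χ i = Cyh.dd (mm0 θ) χ j := by
  classical
  obtain ⟨hcb, hbp, htop⟩ := data hM hB hPD hind
  obtain ⟨hcb', hbp', htop'⟩ := data hM hB hPD hind'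
  obtain ⟨t, ht, hte⟩ := htop.conj_blk hbp hbp'
  have hn := norm_le_norm_Ce (Subgroup.zpowers u) ht
  have hK : Ce (Subgroup.zpowers u) = cs t (Ce (Subgroup.zpowers u)) := (mem_normalizer_iff_cs.1 hn).symm
  rw [← ep_conj t hK] at hte
  have h1 := ep_inj (isPBlock_tB (cI t hK) hcb) hcb' hte
  have h2 := tr_mem_tB (cI t hK) (hf.mem 0)
  rw [h1] at h2
  have hval : ∀ c c' : Ce (Subgroup.zpowers u), (c' : G) = t * c * t⁻¹ →
      ((H10.BlockEFM.tr (cI t hK).symm (θ 0) : IrrCharacter (Ce (Subgroup.zpowers u))) : Ce (Subgroup.zpowers u) → ℂ) c' =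
      (θ 0 : Ce (Subgroup.zpowers u) → ℂ) c := by
    intro c c' hcc
    have hk' : c' = cI t hK c := Subtype.ext hcc
    rw [H10.BlockEFM.tr_apply, hk', MulEquiv.symm_apply_apply]
  have h1r : ¬ p ∣ orderOf ((1 : Ce (Subgroup.zpowers u)) : G) := by
    rw [Subgroup.coe_one, orderOf_one]; exact fun h => hp.out.one_lt.ne' (Nat.dvd_one.1 h)
  have h3 : θ' 0 = H10.BlockEFM.tr (cI t hK).symm (θ 0) := by
    apply hf'.eq_zero h2
    intro x hx
    have h3 : t⁻¹ * (x : G) * t ∈ Ce (Subgroup.zpowers u) := (nm_Ce ht).1 (by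
      have : t * (t⁻¹ * (x : G) * t) * t⁻¹ = x := by group
      rw [this]; exact x.2)
    rw [hval ⟨t⁻¹ * (x : G) * t, h3⟩ x (by show (x : G) = t * (t⁻¹ * (x : G) * t) * t⁻¹; group),
      hval 1 1 (by simp)]
    have h6 : t⁻¹ * (x : G) * t ∈ Subgroup.zpowers u := by
      have h7 := (Subgroup.mem_normalizer_iff.1 ht (t⁻¹ * (x : G) * t)).2 (by
        have : t * (t⁻¹ * (x : G) * t) * t⁻¹ = x := by group
        rw [this]; exact hx)
      exact h7
    obtain ⟨i, hi⟩ := (mem_zpowers_iff hu _).1 h6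
    rw [hf.val 0 i 1 ⟨t⁻¹ * (x : G) * t, h3⟩ h1r (by
      show t⁻¹ * (x : G) * t = zp p u i * ((1 : Ce (Subgroup.zpowers u)) : G)
      rw [hi, Subgroup.coe_one, mul_one]), zero_mul, Cyh.ee_zero, one_mul]
  have hval' : ∀ c c' : Ce (Subgroup.zpowers u), (c' : G) = t * c * t⁻¹ →
      (θ' 0 : Ce (Subgroup.zpowers u) → ℂ) c' = (θ 0 : Ce (Subgroup.zpowers u) → ℂ) c := by
    intro c c' hcc
    rw [h3]; exact hval c c' hcc
  refine ⟨hval' 1 1 (by simp), ((om hu ⟨t, ht⟩)⁻¹ : (ZMod p)ˣ) * i, ?_, ?_⟩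
  · exact mul_ne_zero (Units.ne_zero _) hi
  · rw [dd_AA hu hidx hf', dd_AA hu hidx hf]
    congr 1
    unfold AA
    symm
    refine Fintype.sum_equiv (MulAut.conj t).toEquiv _ _ fun y => ?_
    have e1 : (MulAut.conj t).toEquiv y = t * y * t⁻¹ := rfl
    rw [e1]
    have e2 : zp p u i * (t * y * t⁻¹) = t * (zp p u (((om hu ⟨t, ht⟩)⁻¹ : (ZMod p)ˣ) * i) * y) * t⁻¹ := by
      have e3 := om_spec hu ⟨t, ht⟩ (((om hu ⟨t, ht⟩)⁻¹ : (ZMod p)ˣ) * i)
      rw [← mul_assoc, Units.mul_inv, one_mul] at e3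
      rw [← e3]; group
    rw [e2, IsIrr.isClass χ.2]
    congr 2
    by_cases hy : y ∈ Ce (Subgroup.zpowers u) ∧ ¬ p ∣ orderOf y
    · have hty : t * y * t⁻¹ ∈ Ce (Subgroup.zpowers u) := (nm_Ce ht).2 hy.1
      have htr : ¬ p ∣ orderOf (t * y * t⁻¹) := by rw [orderOf_conj]; exact hy.2
      rw [cf_mem (θ 0) hy.1 hy.2, cf_mem (θ' 0) hty htr]
      exact (hval' ⟨y, hy.1⟩ ⟨t * y * t⁻¹, hty⟩ rfl).symm
    · have e1 : cf p u (θ 0) y = 0 := dif_neg hy
      have e2 : cf p u (θ' 0) (t * y * t⁻¹) = 0 := by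
        apply dif_neg
        rintro ⟨h3, h4⟩
        exact hy ⟨(nm_Ce ht).1 h3, by rwa [orderOf_conj] at h4⟩
      rw [e1, e2]

/-- the value of a nonexceptional character on the defect group -/
theorem val_u (hM : IsPModular p M) (hB : IsPBlock M B) (hu : orderOf u = p)
    (hidx : ¬ p ∣ (Subgroup.zpowers u).index) (hPD : IsDefectGroup p M B (Subgroup.zpowers u))
    (hind : IsInducedBlock M (Ce (Subgroup.zpowers u)) b B) {θ : ZMod p → IrrCharacter (Ce (Subgroup.zpowers u))}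
    (hf : Fam p u b θ) {χ : IrrCharacter G} (hχ : χ ∈ B) {d : ℤ} (hd : ∀ a : ZMod p, a ≠ 0 → vv (mm0 θ) χ a = d) :
    (χ : G → ℂ) u = ((orb (Subgroup.zpowers u) (ep M (Ce (Subgroup.zpowers u)) b)).card : ℂ) *
      ((d : ℂ) * (θ 0 : Ce (Subgroup.zpowers u) → ℂ) 1) := by
  classical
  haveI : Fintype (Ce (Subgroup.zpowers u)) := Fintype.ofFinite _
  haveI : Fintype (IrrCharacter G) := Fintype.ofFinite _
  haveI : Fact (1 < p) := ⟨hp.out.one_lt⟩
  obtain ⟨hcb, hbp, htop⟩ := data hM hB hPD hind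
  have h10 : (1 : ZMod p) ≠ 0 := one_ne_zero
  have h1r : ¬ p ∣ orderOf (1 : Ce (Subgroup.zpowers u)) := by
    rw [orderOf_one]; exact fun h => hp.out.one_lt.ne' (Nat.dvd_one.1 h)
  have hcl : IsClassFunction (Ce (Subgroup.zpowers u))
      (fun c : Ce (Subgroup.zpowers u) => (χ : G → ℂ) (zp p u 1 * (c : G))) := by
    intro g x
    show (χ : G → ℂ) (zp p u 1 * ((x * g * x⁻¹ : Ce (Subgroup.zpowers u)) : G)) = _
    have e1 : zp p u 1 * ((x * g * x⁻¹ : Ce (Subgroup.zpowers u)) : G) = (x : G) * (zp p u 1 * g) * (x : G)⁻¹ := by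
      have e2 := (zp_comm x.2 (1 : ZMod p)).eq
      rw [Subgroup.coe_mul, Subgroup.coe_mul, Subgroup.coe_inv]
      calc zp p u 1 * ((x : G) * g * (x : G)⁻¹) = (zp p u 1 * (x : G)) * g * (x : G)⁻¹ := by group
        _ = (x : G) * (zp p u 1 * g) * (x : G)⁻¹ := by rw [e2]; group
    rw [e1, IsIrr.isClass χ.2]
  have h1 := sum_parts (M := M) _ hcl 1
  have h2 : ∀ b' ∈ blocks (Ce (Subgroup.zpowers u)) M,
      blockPart b' (fun c : Ce (Subgroup.zpowers u) => (χ : G → ℂ) (zp p u 1 * (c : G))) 1 =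
      if IsInducedBlock M (Ce (Subgroup.zpowers u)) b' B then (d : ℂ) * (θ 0 : Ce (Subgroup.zpowers u) → ℂ) 1 else 0 := by
    intro b' hb'
    rw [mem_blocks] at hb'
    split_ifs with hi
    · obtain ⟨θ', hf'⟩ := fam_of hM hB hu hidx hPD hi
      obtain ⟨h3, j, hj, h4⟩ := conj_dd hM hB hu hidx hPD hind hf hi hf' χ h10
      rw [bp_dd hu hf' χ h10 1 h1r, h3, h4, dd_const (mm0 θ) χ hd hj]
    · obtain ⟨B', hB'⟩ := ind_def hM (cen_eq hu h10) (zp_ord hu 1) hb'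
      have h3 : χ ∉ B' := by
        intro h
        have : B' = B := block_eq_of_mem hB'.2.1 hB h hχ
        exact hi (this ▸ hB')
      exact sec_zero' hM (cen_eq hu h10) (zp_ord hu 1) hB' h3 1 h1r
  rw [Finset.sum_congr rfl h2, ← Finset.sum_filter, Finset.sum_const, card_ind hM hB hbp htop, nsmul_eq_mul] at h1
  have h3 : (χ : G → ℂ) (zp p u 1 * ((1 : Ce (Subgroup.zpowers u)) : G)) = (χ : G → ℂ) u := by
    rw [Subgroup.coe_one, mul_one, zp_one]
  rw [← h3]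
  exact h1

end val

end Cfsg.Agent.H25.Cyp
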