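import Mathlib
import Cfsg.Agent.H25_Cyg
import Cfsg.Agent.H25_Cyj
import Cfsg.Agent.H25_STs

/-!
H25_Cys: the characters of a nilpotent block with cyclic defect group.
-/

set_option autoImplicit false
set_option linter.unusedSectionVars false

open scoped ComplexConjugate

namespace Cfsg.Agent.H25.Cys

open Cfsg Cfsg.Agent.H3 Cfsg.Agent.H3.CharIrr Cfsg.Agent.H3.CharComplete Cfsg.Agent.H3.CharBasic
  Cfsg.Agent.H10.BlockLoc Cfsg.Agent.H10.BlockAlg Cfsg.Agent.H10.BlockIdem Cfsg.Agent.H10.Char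
  Cfsg.Agent.H10.BlockSMT Cfsg.Agent.H10.BlockTrace
  Cfsg.Agent.H10.PPart Cfsg.Agent.H25.IndCong Cfsg.Agent.H25.Red Cfsg.Agent.H25.KG
  Cfsg.Agent.H25.BPTr Cfsg.Agent.H25.BPMain Cfsg.Agent.H25.BPDef Cfsg.Agent.H25.Fus Cfsg.Agent.H25.Nilp
  Cfsg.Agent.H25.STa Cfsg.Agent.H25.STb Cfsg.Agent.H25.STc Cfsg.Agent.H25.STd
  Cfsg.Agent.H25.STe Cfsg.Agent.H25.STf Cfsg.Agent.H25.STg Cfsg.Agent.H25.STh Cfsg.Agent.H25.STi
  Cfsg.Agent.H25.STj Cfsg.Agent.H25.STk Cfsg.Agent.H25.STl Cfsg.Agent.H25.STm Cfsg.Agent.H25.STn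
  Cfsg.Agent.H25.STo Cfsg.Agent.H25.STp Cfsg.Agent.H25.STq Cfsg.Agent.H25.STr

/-- enumeration of a cyclic subgroup -/
def wp {G : Type*} [Group G] {P : Subgroup G} {q : ℕ} (φ : Multiplicative (ZMod q) ≃* P) (i : ZMod q) : G :=
  (φ (Multiplicative.ofAdd i) : P)

section wp

variable {G : Type*} [Group G] {P : Subgroup G} {q : ℕ} (φ : Multiplicative (ZMod q) ≃* P)

theorem wp_mem (i : ZMod q) : wp φ i ∈ P := Subtype.property _

theorem wp_add (i j : ZMod q) : wp φ (i + j) = wp φ i * wp φ j := by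
  unfold wp
  rw [ofAdd_add, map_mul, Subgroup.coe_mul]

theorem wp_zero : wp φ 0 = 1 := by
  unfold wp
  rw [ofAdd_zero, map_one, Subgroup.coe_one]

theorem wp_inj {i j : ZMod q} (h : wp φ i = wp φ j) : i = j := by
  have h1 : φ (Multiplicative.ofAdd i) = φ (Multiplicative.ofAdd j) := Subtype.ext h
  exact Multiplicative.ofAdd.injective (φ.injective h1)

theorem wp_surj {x : G} (hx : x ∈ P) : ∃ i, wp φ i = x := by
  refine ⟨Multiplicative.toAdd (φ.symm ⟨x, hx⟩), ?_⟩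
  unfold wp
  rw [ofAdd_toAdd, MulEquiv.apply_symm_apply]

theorem wp_comm (i j : ZMod q) : wp φ i * wp φ j = wp φ j * wp φ i := by
  rw [← wp_add, ← wp_add, add_comm]

theorem wp_neg (i : ZMod q) : wp φ (-i) = (wp φ i)⁻¹ := by
  rw [eq_inv_iff_mul_eq_one, ← wp_add, neg_add_cancel, wp_zero]

theorem wp_nat (n : ℕ) : wp φ (n : ZMod q) = wp φ 1 ^ n := by
  induction n with
  | zero => rw [Nat.cast_zero, wp_zero, pow_zero]
  | succ n ih => rw [Nat.cast_succ, wp_add, ih, pow_succ]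

include φ in
theorem P_comm : ∀ x y : P, x * y = y * x := by
  intro x y
  obtain ⟨i, hi⟩ := wp_surj φ x.2
  obtain ⟨j, hj⟩ := wp_surj φ y.2
  apply Subtype.ext
  rw [Subgroup.coe_mul, Subgroup.coe_mul, ← hi, ← hj, wp_comm]

include φ in
theorem P_card [NeZero q] : Nat.card P = q := by
  rw [← Nat.card_congr φ.toEquiv, Nat.card_congr Multiplicative.toAdd, Nat.card_eq_fintype_card, ZMod.card]

end wp

section lam

variable {G : Type*} [Group G] [Fintype G] {P : Subgroup G} {q : ℕ} [NeZero q] (φ : Multiplicative (ZMod q) ≃* P)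

/-- the linear characters of `P` -/
noncomputable def lamH (a : ZMod q) : P →* ℂ where
  toFun x := Cyh.ee (a * Multiplicative.toAdd (φ.symm x))
  map_one' := by rw [map_one, toAdd_one, mul_zero, Cyh.ee_zero]
  map_mul' x y := by rw [map_mul, toAdd_mul, mul_add, Cyh.ee_add]

noncomputable def lam [Fintype P] (a : ZMod q) : IrrCharacter P := ⟨fun x => lamH φ a x, CharInd.isIrr_of_hom _⟩

theorem lam_wp [Fintype P] (a i : ZMod q) (h : wp φ i ∈ P) : (lam φ a : P → ℂ) ⟨wp φ i, h⟩ = Cyh.ee (a * i) := by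
  show Cyh.ee (a * Multiplicative.toAdd (φ.symm ⟨wp φ i, h⟩)) = _
  have : (⟨wp φ i, h⟩ : P) = φ (Multiplicative.ofAdd i) := Subtype.ext rfl
  rw [this, MulEquiv.symm_apply_apply, toAdd_ofAdd]

theorem xf_lam [Fintype P] (a i : ZMod q) : xf P (lam φ a : P → ℂ) (wp φ i) = Cyh.ee (a * i) := by
  rw [xf_mem _ (wp_mem φ i), lam_wp]

theorem ee_inj {q : ℕ} [NeZero q] {a b : ZMod q} (h : Cyh.ee a = Cyh.ee b) : a = b := ZMod.injective_stdAddChar h

theorem lam_inj [Fintype P] : Function.Injective (lam φ) := by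
  intro a b h
  have h1 := congrArg (fun l : IrrCharacter P => xf P (l : P → ℂ) (wp φ 1)) h
  simp only [xf_lam, mul_one] at h1
  exact ee_inj h1

theorem lam_surj [Fintype P] (l : IrrCharacter P) : ∃ a, lam φ a = l := by
  have h1 : Function.Bijective (lam φ) := by
    rw [Nat.bijective_iff_injective_and_card]
    refine ⟨lam_inj φ, ?_⟩
    rw [H10.AbChar.card_irr_comm (P_comm φ), P_card φ, Nat.card_eq_fintype_card, ZMod.card]
  exact h1.2 l

end lam

/-- the family of characters of a nilpotent block with cyclic defect group -/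
structure Fam2 {G : Type*} [Group G] (p : ℕ) (M : Ideal AlgInt) (B : Set (IrrCharacter G)) {P : Subgroup G} {q : ℕ}
    [NeZero q] (φ : Multiplicative (ZMod q) ≃* P) (χ : ZMod q → IrrCharacter G) : Prop where
  mem : ∀ a, χ a ∈ B
  surj : ∀ ψ ∈ B, ∃ a, χ a = ψ
  inj : Function.Injective χ
  reg : ∀ a y, ¬ p ∣ orderOf y → (χ a : G → ℂ) y = (χ 0 : G → ℂ) y
  fou : ∀ i g, ∃ τ, MemLocalRing M τ ∧ ∑ a, Cyh.ee (a * i) * (χ a : G → ℂ) g = q * τ
  cen : ∀ a m, (∀ g, g * wp φ m = wp φ m * g) → (χ a : G → ℂ) (wp φ m) = Cyh.ee (a * m) * (χ 0 : G → ℂ) (wp φ m)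

variable {p : ℕ} {M : Ideal AlgInt} {G : Type*} [Group G] [Fintype G] [hMax : M.IsMaximal]
  [hp : Fact p.Prime] [hch : CharP (KM M) p] {P : Subgroup G} {E : MonoidAlgebra (KM M) G}
  {B : Set (IrrCharacter G)}

theorem th_mem {z : G → MonoidAlgebra ℂ G} (hz : ∀ u, z u ∈ intA G M) (χ : IrrCharacter G) (g : G) :
    MemLocalRing M (th p z (χ : G → ℂ) g) := by
  unfold th
  rw [lin_apply]
  refine ring_sum _ _ fun x _ => ring_mul ?_ ?_
  · exact (intA G M).mul_mem (hz _) (single_mem_intA _) x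
  · exact memLocalRing_of_integral hMax.ne_top (IsChar.isIntegral (IsIrr.isCharacter χ.2) x)

/-- functions on an abelian defect group of a nilpotent block are stable -/
theorem stab_ab (hM : IsPModular p M) (hP : BP p (epG M B) P E) (htop : KG.Top p P E) (hn : Nilp p (epG M B))
    (hab : ∀ x ∈ P, ∀ y ∈ P, x * y = y * x) (η : G → ℂ) : Stab p P E η := by
  intro u hu g hg
  obtain ⟨w, hw, he⟩ := fr_inner hM hP htop hn hg
  have e := he u (Subgroup.mem_zpowers u)
  rw [e, hab w hw u hu, mul_inv_cancel_right]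

theorem exists_fam2 (hM : IsPModular p M) (hB : IsPBlock M B) (hP : BP p (epG M B) P E) (htop : KG.Top p P E)
    (hn : Nilp p (epG M B)) {q : ℕ} [NeZero q] (φ : Multiplicative (ZMod q) ≃* P) {χ₀ : IrrCharacter G} (hχ : χ₀ ∈ B)
    (h0 : blockHeight p B (χ₀ : G → ℂ) = 0) :
    ∃ χ : ZMod q → IrrCharacter G, χ 0 = χ₀ ∧ Fam2 p M B φ χ ∧
      ∀ a, ∀ [Fintype P], st p P E (xf P (lam φ a : P → ℂ)) (χ₀ : G → ℂ) = (χ a : G → ℂ) := by
  classical
  letI : Fintype P := Fintype.ofFinite _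
  have hab : ∀ x ∈ P, ∀ y ∈ P, x * y = y * x := fun x hx y hy =>
    congrArg Subtype.val (P_comm φ ⟨x, hx⟩ ⟨y, hy⟩)
  have hst : ∀ η : G → ℂ, Stab p P E η := stab_ab hM hP htop hn hab
  have hcl := IsIrr.isClass χ₀.2
  choose χ hχB hχst hχ1 using fun a : ZMod q => nil_irr hM hB hP htop hn hχ h0 (lam φ a)
  have hx1 : ∀ a, xf P (lam φ a : P → ℂ) 1 = 1 := by
    intro a
    have := xf_lam φ a 0
    rwa [wp_zero, mul_zero, Cyh.ee_zero] at this
  have hreg : ∀ a y, ¬ p ∣ orderOf y → (χ a : G → ℂ) y = (χ₀ : G → ℂ) y := by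
    intro a y hy
    rw [← hχst a, st_reg hM hB hP htop (hst _) hχ hy, hx1, one_mul]
  have hz0 : χ 0 = χ₀ := by
    apply Subtype.ext
    show (χ 0 : G → ℂ) = (χ₀ : G → ℂ)
    rw [← hχst 0]
    have h1 : ∀ u ∈ P, xf P (lam φ (0 : ZMod q) : P → ℂ) u = 1 := by
      intro u hu
      obtain ⟨i, rfl⟩ := wp_surj φ hu
      rw [xf_lam, zero_mul, Cyh.ee_zero]
    have h2 : st p P E (xf P (lam φ (0 : ZMod q) : P → ℂ)) (χ₀ : G → ℂ) = st p P E (fun _ => 1) (χ₀ : G → ℂ) := by
      refine fun_eq_of_sec (p := p) fun u hu y hy => ?_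
      haveI : Fintype (Subgroup.centralizer ({u} : Set G)) := Fintype.ofFinite _
      rw [st_eq _ hcl hu y hy, st_eq _ hcl hu y hy]
      refine Finset.sum_congr rfl fun b _ => ?_
      rw [cc_congr h1]
    rw [h2, st_one hM hB hP htop hχ]
  refine ⟨χ, hz0, ⟨hχB, ?_, ?_, ?_, ?_, ?_⟩, ?_⟩
  · intro ψ hψ
    obtain ⟨η, hη⟩ := nil_surj hM hB hP htop hn hχ h0 hψ
    obtain ⟨a, rfl⟩ := lam_surj φ η
    refine ⟨a, Subtype.ext ?_⟩
    show (χ a : G → ℂ) = _
    rw [← hχst a]; exact hη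
  · intro a b hab'
    apply lam_inj φ
    by_contra hne
    have h1 := nil_inner' hM hB hP htop hn hχ h0 (lam φ a) (lam φ b)
    rw [hχst, hχst, hab', ci_irr (χ b).2 (χ b).2, if_pos rfl, ci_irr (lam φ a).2 (lam φ b).2, if_neg] at h1
    · exact one_ne_zero h1
    · intro h
      exact hne (Subtype.ext h)
  · intro a y hy
    rw [hreg a y hy, hz0]
  · intro i g
    set δ : G → ℂ := fun x => if x = wp φ (-i) then 1 else 0 with hδ
    have h1 : (fun x => ∑ a : ZMod q, Cyh.ee (a * i) * xf P (lam φ a : P → ℂ) x) = fun x => (q : ℂ) * δ x := by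
      funext x
      by_cases hx : x ∈ P
      · obtain ⟨j, rfl⟩ := wp_surj φ hx
        have h2 : ∀ a : ZMod q, Cyh.ee (a * i) * xf P (lam φ a : P → ℂ) (wp φ j) = Cyh.ee ((i + j) * a) := by
          intro a
          rw [xf_lam, ← Cyh.ee_add]
          congr 1; ring
        rw [Finset.sum_congr rfl fun a _ => h2 a, Cyh.sum_ee]
        show _ = (q : ℂ) * (if wp φ j = wp φ (-i) then 1 else 0)
        by_cases hij : i + j = 0
        · rw [if_pos hij, if_pos (by rw [show j = -i by rw [eq_neg_iff_add_eq_zero, add_comm]; exact hij]), mul_one]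
        · rw [if_neg hij, if_neg (fun h => hij (by rw [wp_inj φ h]; ring)), mul_zero]
      · have h2 : ∀ a : ZMod q, xf P (lam φ a : P → ℂ) x = 0 := fun a => by unfold xf; rw [dif_neg hx]
        show _ = (q : ℂ) * (if x = wp φ (-i) then 1 else 0)
        rw [if_neg (fun h => hx (by rw [h]; exact wp_mem φ _)), mul_zero]
        exact Finset.sum_eq_zero fun a _ => by rw [h2, mul_zero]
    refine ⟨st p P E δ (χ₀ : G → ℂ) g, th_mem (fun u => zz_int (hst δ) ?_ u) χ₀ g, ?_⟩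
    · intro u _
      show IsIntegral ℤ (if u = wp φ (-i) then (1 : ℂ) else 0)
      split_ifs
      · exact isIntegral_one
      · exact isIntegral_zero
    · have h3 := st_sum (P := P) (E := E) hM Finset.univ (fun a : ZMod q => Cyh.ee (a * i)) (fun a => xf P (lam φ a : P → ℂ))
        (fun a _ => hst _) hcl
      have h4 := st_sum (P := P) (E := E) hM (Finset.univ : Finset Unit) (fun _ => (q : ℂ)) (fun _ => δ) (fun a _ => hst _) hcl
      simp only [Finset.univ_unique, Finset.sum_singleton] at h4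
      rw [h1, h4] at h3
      have h5 := congrFun h3 g
      rw [Finset.sum_apply] at h5
      simp only [Pi.smul_apply, smul_eq_mul] at h5
      rw [h5]
      exact Finset.sum_congr rfl fun a _ => by rw [hχst]
  · intro a m hm
    have hu : ∃ k : ℕ, orderOf (wp φ m) = p ^ k := by
      obtain ⟨k, hk⟩ := IsPGroup.iff_orderOf.1 hP.pg ⟨wp φ m, wp_mem φ m⟩
      rw [Subgroup.orderOf_mk] at hk
      exact ⟨k, hk⟩
    haveI : Fintype (Subgroup.centralizer ({wp φ m} : Set G)) := Fintype.ofFinite _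
    have h1 : ¬ p ∣ orderOf (1 : Subgroup.centralizer ({wp φ m} : Set G)) := by
      rw [orderOf_one]; exact hp.out.one_lt.ne' ∘ Nat.dvd_one.1
    have h2 := st_eq (p := p) (P := P) (E := E) (xf P (lam φ a : P → ℂ)) hcl hu 1 h1
    have h3 := st_eq (p := p) (P := P) (E := E) (fun _ => 1) hcl hu 1 h1
    rw [st_one hM hB hP htop hχ] at h3
    rw [hχst] at h2
    rw [Subgroup.coe_one, mul_one] at h2 h3
    rw [h2, hz0, h3, Finset.mul_sum]
    refine Finset.sum_congr rfl fun b _ => ?_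
    rw [← mul_assoc]
    congr 1
    by_cases h : ∃ x, LE p (Subgroup.zpowers (x * wp φ m * x⁻¹)) (KG.cnj x (ep M (Subgroup.centralizer ({wp φ m} : Set G)) b)) P E
    · obtain ⟨x, hx⟩ := h
      rw [cc_eq (hst _) hx, cc_eq (hst _) hx, mul_one, hm, mul_inv_cancel_right, xf_lam]
    · rw [cc_zero h, cc_zero h, mul_zero]
  · intro a inst
    have := hχst a
    convert this

end Cfsg.Agent.H25.Cys
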