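import Mathlib
import Cfsg.Agent.H25_Cys

/-!
H25_Cyt: the generator of the radical of a nilpotent block algebra with cyclic defect group.
-/

set_option autoImplicit false
set_option linter.unusedSectionVars false

open scoped ComplexConjugate

namespace Cfsg.Agent.H25.Cyt

open Cfsg Cfsg.Agent.H3 Cfsg.Agent.H3.CharIrr Cfsg.Agent.H3.CharComplete Cfsg.Agent.H3.CharBasic
  Cfsg.Agent.H10.BlockLoc Cfsg.Agent.H10.BlockAlg Cfsg.Agent.H10.BlockIdem Cfsg.Agent.H10.Char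
  Cfsg.Agent.H10.BlockSMT Cfsg.Agent.H10.BlockTrace
  Cfsg.Agent.H10.PPart Cfsg.Agent.H25.IndCong Cfsg.Agent.H25.Red Cfsg.Agent.H25.KG
  Cfsg.Agent.H25.BPTr Cfsg.Agent.H25.BPMain Cfsg.Agent.H25.BPDef Cfsg.Agent.H25.Fus Cfsg.Agent.H25.Nilp
  Cfsg.Agent.H25.STc Cfsg.Agent.H25.Cys Cfsg.Agent.H25.Cya

variable {p : ℕ} {M : Ideal AlgInt} {G : Type*} [Group G] [Fintype G] [hMax : M.IsMaximal]
  [hp : Fact p.Prime] [hch : CharP (KM M) p] {P : Subgroup G} {B : Set (IrrCharacter G)}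
  {q : ℕ} [NeZero q] {φ : Multiplicative (ZMod q) ≃* P} {χ : ZMod q → IrrCharacter G}

/-- the elements of the center -/
noncomputable def CC (χ : ZMod q → IrrCharacter G) (i : ZMod q) : ZC G :=
  ⟨ofFun fun g => (χ 0 : G → ℂ) 1 / (Nat.card G : ℂ) * ∑ a, Cyh.ee (a * i) * (χ a : G → ℂ) g⁻¹, by
    rw [mem_center_iff]
    intro x y
    show (χ 0 : G → ℂ) 1 / (Nat.card G : ℂ) * ∑ a, Cyh.ee (a * i) * (χ a : G → ℂ) (y * x * y⁻¹)⁻¹ =
      (χ 0 : G → ℂ) 1 / (Nat.card G : ℂ) * ∑ a, Cyh.ee (a * i) * (χ a : G → ℂ) x⁻¹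
    congr 1
    refine Finset.sum_congr rfl fun a _ => ?_
    have : (y * x * y⁻¹)⁻¹ = y * x⁻¹ * y⁻¹ := by group
    rw [this, IsIrr.isClass (χ a).2]⟩

theorem CC_c (i : ZMod q) (g : G) : (CC χ i : MonoidAlgebra ℂ G).coeff g =
    (χ 0 : G → ℂ) 1 / (Nat.card G : ℂ) * ∑ a, Cyh.ee (a * i) * (χ a : G → ℂ) g⁻¹ := rfl

theorem deg (hf : Fam2 p M B φ χ) (a : ZMod q) : (χ a : G → ℂ) 1 = (χ 0 : G → ℂ) 1 :=
  hf.reg a 1 (by rw [orderOf_one]; exact hp.out.one_lt.ne' ∘ Nat.dvd_one.1)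

open Classical in
theorem om_CC (ψ : IrrCharacter G) (i : ZMod q) : om ψ (CC χ i) =
    (χ 0 : G → ℂ) 1 / (ψ : G → ℂ) 1 * ∑ a, Cyh.ee (a * i) * (if ψ = χ a then 1 else 0) := by
  rw [om_apply, lin_apply]
  have h1 : ∀ a, ∑ g : G, (χ a : G → ℂ) g⁻¹ * (ψ : G → ℂ) g = (Nat.card G : ℂ) * (if ψ = χ a then 1 else 0) := by
    intro a
    have h2 := ci_irr ψ.2 (χ a).2
    have h3 : (Nat.card G : ℂ) ≠ 0 := by exact_mod_cast Nat.card_pos.ne'
    unfold classInner at h2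
    have h4 : (if ψ = χ a then (1:ℂ) else 0) = if (ψ : G → ℂ) = (χ a : G → ℂ) then 1 else 0 := by
      congr 1
      simp only [eq_iff_iff]
      exact ⟨fun h => by rw [h], fun h => Subtype.ext h⟩
    rw [h4, ← h2, mul_inv_cancel_left₀ h3]
    refine Finset.sum_congr rfl fun g _ => ?_
    rw [mul_comm, IsChar.inv_eq_conj (IsIrr.isCharacter (χ a).2)]
  have h3 : (Nat.card G : ℂ) ≠ 0 := by exact_mod_cast Nat.card_pos.ne'
  have h5 : ∑ g : G, (CC χ i : MonoidAlgebra ℂ G).coeff g * (ψ : G → ℂ) g =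
      (χ 0 : G → ℂ) 1 * ∑ a, Cyh.ee (a * i) * (if ψ = χ a then 1 else 0) := by
    simp_rw [CC_c]
    have h6 : ∀ g : G, (χ 0 : G → ℂ) 1 / (Nat.card G : ℂ) * (∑ a, Cyh.ee (a * i) * (χ a : G → ℂ) g⁻¹) * (ψ : G → ℂ) g =
        (χ 0 : G → ℂ) 1 / (Nat.card G : ℂ) * ∑ a, Cyh.ee (a * i) * ((χ a : G → ℂ) g⁻¹ * (ψ : G → ℂ) g) := by
      intro g
      rw [mul_assoc, Finset.sum_mul]
      congr 1
      exact Finset.sum_congr rfl fun a _ => by ring
    rw [Finset.sum_congr rfl fun g _ => h6 g, ← Finset.mul_sum, Finset.sum_comm]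
    have h7 : ∀ a : ZMod q, ∑ g : G, Cyh.ee (a * i) * ((χ a : G → ℂ) g⁻¹ * (ψ : G → ℂ) g) =
        (Nat.card G : ℂ) * (Cyh.ee (a * i) * (if ψ = χ a then 1 else 0)) := by
      intro a
      rw [← Finset.mul_sum, h1]; ring
    rw [Finset.sum_congr rfl fun a _ => h7 a, ← Finset.mul_sum]
    field_simp
  rw [h5]
  ring

theorem om_CC_mem (hf : Fam2 p M B φ χ) (b i : ZMod q) : om (χ b) (CC χ i) = Cyh.ee (b * i) := by
  classical
  rw [om_CC, deg hf b, div_self (IsIrr.one_ne_zero (χ 0).2), one_mul,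
    Finset.sum_eq_single_of_mem b (Finset.mem_univ _)]
  · rw [if_pos rfl, mul_one]
  · intro a _ ha
    rw [if_neg (fun h => ha (hf.inj h).symm), mul_zero]

theorem om_CC_not (hf : Fam2 p M B φ χ) {ψ : IrrCharacter G} (h : ψ ∉ B) (i : ZMod q) : om ψ (CC χ i) = 0 := by
  classical
  rw [om_CC, Finset.sum_eq_zero, mul_zero]
  intro a _
  rw [if_neg (fun h' => h (by rw [h']; exact hf.mem a)), mul_zero]

theorem CC_mul (hf : Fam2 p M B φ χ) (i j : ZMod q) : CC χ i * CC χ j = CC χ (i + j) := by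
  apply om_injective
  intro ψ
  rw [map_mul]
  by_cases h : ψ ∈ B
  · obtain ⟨b, rfl⟩ := hf.surj ψ h
    rw [om_CC_mem hf, om_CC_mem hf, om_CC_mem hf, mul_add, Cyh.ee_add]
  · rw [om_CC_not hf h, om_CC_not hf h, om_CC_not hf h, mul_zero]

theorem CC_zero [Fintype (IrrCharacter G)] (hf : Fam2 p M B φ χ) : CC χ (0 : ZMod q) = eB B := by
  classical
  apply eq_eB
  intro ψ
  split_ifs with h
  · obtain ⟨b, rfl⟩ := hf.surj ψ h
    rw [om_CC_mem hf, mul_zero, Cyh.ee_zero]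
  · exact om_CC_not hf h 0

/-- the scalar -/
theorem kap_mem (hM : IsPModular p M) (hB : IsPBlock M B) (hD : IsDefectGroup p M B P) {χ₀ : IrrCharacter G}
    (hχ : χ₀ ∈ B) (h0 : blockHeight p B (χ₀ : G → ℂ) = 0) (hq : q = Nat.card P) :
    MemLocalRing M ((χ₀ : G → ℂ) 1 / (Nat.card G : ℂ) * q) := by
  have h1 := Cfsg.Agent.H10.BlockMain.card_defectGroup hM hB hD
  have h2 : (χ₀ : G → ℂ) 1 / (Nat.card G : ℂ) * q = ((charDegree (χ₀ : G → ℂ) * q : ℕ) : ℂ) / (Nat.card G : ℕ) := by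
    push_cast
    rw [charDegree_eq χ₀.2]; ring
  rw [h2, ring_nat_div_iff hM (mul_ne_zero (charDegree_pos χ₀.2).ne' (NeZero.ne q)) Nat.card_pos.ne',
    Nat.factorization_mul (charDegree_pos χ₀.2).ne' (NeZero.ne q), Finsupp.add_apply, hq, h1, Nat.factorization_pow,
    Finsupp.smul_apply, hp.out.factorization_self, smul_eq_mul, mul_one]
  have h3 : sInf ((fun χ : IrrCharacter G => (charDegree (χ : G → ℂ)).factorization p) '' B) ≤
      (charDegree (χ₀ : G → ℂ)).factorization p := Nat.sInf_le ⟨χ₀, hχ, rfl⟩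
  unfold blockHeight at h0
  unfold blockDefect
  omega

theorem CC_int (hf : Fam2 p M B φ χ) (hk : MemLocalRing M ((χ 0 : G → ℂ) 1 / (Nat.card G : ℂ) * q)) (i : ZMod q) :
    (CC χ i : MonoidAlgebra ℂ G) ∈ intA G M := by
  intro g
  obtain ⟨τ, hτ, e⟩ := hf.fou i g⁻¹
  rw [CC_c, e, ← mul_assoc]
  exact ring_mul hk hτ

variable (M) in
/-- reduction -/
noncomputable def cb (χ : ZMod q → IrrCharacter G) (i : ZMod q) : MonoidAlgebra (KM M) G :=
  rA M (CC χ i : MonoidAlgebra ℂ G)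

theorem cb_mul (hf : Fam2 p M B φ χ) (hk : MemLocalRing M ((χ 0 : G → ℂ) 1 / (Nat.card G : ℂ) * q)) (i j : ZMod q) :
    cb M χ i * cb M χ j = cb M χ (i + j) := by
  unfold cb
  rw [← rA_mul (CC_int hf hk i) (CC_int hf hk j), ← CC_mul hf]
  rfl

theorem cb_zero (hf : Fam2 p M B φ χ) : cb M χ (0 : ZMod q) = epG M B := by
  haveI : Fintype (IrrCharacter G) := Fintype.ofFinite _
  unfold cb
  rw [CC_zero hf]
  apply KG.ext_c
  intro g
  rw [rA_c, eB_coeff, epG_c]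

theorem cb_comm (i : ZMod q) (x : MonoidAlgebra (KM M) G) : x * cb M χ i = cb M χ i * x := by
  refine (comm_of (H := ⊤) ?_ (fun x _ => Subgroup.mem_top x)).symm
  rw [fix_iff]
  intro g _ x
  unfold cb
  rw [rA_c, rA_c]
  congr 1
  exact (mem_center_iff _).1 (CC χ i).2 x g

theorem rd_zl (hM : IsPModular p M) {u : G} (hu : ∀ c : G, c * u = u * c) (hup : ∃ k : ℕ, orderOf u = p ^ k)
    (ψ : IrrCharacter G) : MemLocalRing M (zl u ψ) ∧ rd M (zl u ψ) = 1 := by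
  have h1 := zl_sub_one hM hu hup ψ
  have h2 : MemLocalRing M (zl u ψ) := memLocalRing_of_integral hMax.ne_top (zl_integral hu ψ)
  refine ⟨h2, ?_⟩
  rw [← rd_one (M := M), rd_eq_iff h2 ring_one]
  exact h1

theorem cb_cen (hM : IsPModular p M) (hf : Fam2 p M B φ χ)
    (hk : MemLocalRing M ((χ 0 : G → ℂ) 1 / (Nat.card G : ℂ) * q)) {m : ZMod q}
    (hu : ∀ c : G, c * wp φ m = wp φ m * c) (hup : ∃ k : ℕ, orderOf (wp φ m) = p ^ k) :
    (sg (wp φ m) : MonoidAlgebra (KM M) G) * epG M B = cb M χ m := by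
  obtain ⟨h1, h2⟩ := rd_zl hM hu hup (χ 0)
  apply KG.ext_c
  intro g
  rw [sg_mul_c, ← cb_zero hf]
  unfold cb
  rw [rA_c, rA_c]
  have h3 : (CC χ (0 : ZMod q) : MonoidAlgebra ℂ G).coeff ((wp φ m)⁻¹ * g) =
      zl (wp φ m) (χ 0) * (CC χ m : MonoidAlgebra ℂ G).coeff g := by
    rw [CC_c, CC_c, mul_left_comm]
    congr 1
    rw [Finset.mul_sum]
    refine Finset.sum_congr rfl fun a _ => ?_
    have e1 : ((wp φ m)⁻¹ * g)⁻¹ = wp φ m * g⁻¹ := by rw [mul_inv_rev, inv_inv, hu]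
    rw [mul_zero, Cyh.ee_zero, one_mul, e1, central_mul hu, hf.cen a m hu, deg hf a]
    unfold zl
    ring
  rw [h3, rd_mul h1 (CC_int hf hk m g), h2, one_mul]

theorem sum_cb (hf : Fam2 p M B φ χ) (hk : MemLocalRing M ((χ 0 : G → ℂ) 1 / (Nat.card G : ℂ) * q)) (g : G) :
    (∑ i : ZMod q, cb M χ i).coeff g = rd M ((χ 0 : G → ℂ) 1 / (Nat.card G : ℂ) * q) * rd M ((χ 0 : G → ℂ) g⁻¹) := by
  have h1 : (∑ i : ZMod q, cb M χ i).coeff g = ∑ i : ZMod q, (cb M χ i).coeff g := by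
    rw [MonoidAlgebra.coeff_sum, Finsupp.finset_sum_apply]
  have h2 : ∀ x, MemLocalRing M ((χ 0 : G → ℂ) x) := fun x =>
    memLocalRing_of_integral hMax.ne_top (IsChar.isIntegral (IsIrr.isCharacter (χ 0).2) x)
  rw [h1, ← rd_mul hk (h2 _)]
  unfold cb
  simp_rw [rA_c]
  rw [← rd_sum _ _ fun i _ => CC_int hf hk i g]
  congr 1
  simp_rw [CC_c]
  rw [← Finset.mul_sum, mul_assoc, Finset.sum_comm]
  congr 1
  have h3 : ∀ a : ZMod q, ∑ i : ZMod q, Cyh.ee (a * i) * (χ a : G → ℂ) g⁻¹ = (if a = 0 then (q : ℂ) else 0) * (χ a : G → ℂ) g⁻¹ := by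
    intro a
    rw [← Finset.sum_mul, Cyh.sum_ee]
  rw [Finset.sum_congr rfl fun a _ => h3 a, Finset.sum_eq_single_of_mem 0 (Finset.mem_univ _), if_pos rfl]
  intro a _ ha
  rw [if_neg ha, zero_mul]

end Cfsg.Agent.H25.Cyt
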