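import Mathlib
import Cfsg.Agent.H25_Cyt

/-!
H25_Cyt2: the generator of the radical of a nilpotent block algebra with cyclic defect group (algebra part).
-/

set_option autoImplicit false
set_option linter.unusedSectionVars false

open scoped ComplexConjugate

namespace Cfsg.Agent.H25.Cyt2

open Cfsg Cfsg.Agent.H3 Cfsg.Agent.H3.CharIrr Cfsg.Agent.H3.CharComplete Cfsg.Agent.H3.CharBasic
  Cfsg.Agent.H10.BlockLoc Cfsg.Agent.H10.BlockAlg Cfsg.Agent.H10.BlockIdem Cfsg.Agent.H10.Char
  Cfsg.Agent.H10.BlockSMT Cfsg.Agent.H10.BlockTrace Cfsg.Agent.H10.RegPart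
  Cfsg.Agent.H10.PPart Cfsg.Agent.H25.IndCong Cfsg.Agent.H25.Red Cfsg.Agent.H25.KG
  Cfsg.Agent.H25.BPTr Cfsg.Agent.H25.BPMain Cfsg.Agent.H25.BPDef Cfsg.Agent.H25.Fus Cfsg.Agent.H25.Nilp
  Cfsg.Agent.H25.STc Cfsg.Agent.H25.Cys Cfsg.Agent.H25.Cya Cfsg.Agent.H25.Cyb Cfsg.Agent.H25.Cyt Cfsg.Agent.H25.Cye
  Cfsg.Agent.H9.BrMod3 Cfsg.Agent.H9.BrMod4 Cfsg.Agent.H9.BrMod5

section poly

variable (k : Type*) [Field k] {p : ℕ} [hp : Fact p.Prime] [CharP k p] {R : Type*} [Ring R] [Algebra k R]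

include k in
theorem sub_one_pow (a : ℕ) (x : R) : (x - 1) ^ p ^ a = x ^ p ^ a - 1 := by
  have h1 : ((Polynomial.X - 1 : Polynomial k)) ^ p ^ a = Polynomial.X ^ p ^ a - 1 := by
    have := sub_pow_char_pow (R := Polynomial k) Polynomial.X 1 (p := p) (n := a)
    rwa [one_pow] at this
  have h2 := congrArg (Polynomial.aeval x) h1
  rwa [map_pow, map_sub, map_sub, map_pow, Polynomial.aeval_X, map_one] at h2

include k in
theorem sub_one_pow_pred (a : ℕ) (x : R) : (x - 1) ^ (p ^ a - 1) = ∑ i ∈ Finset.range (p ^ a), x ^ i := by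
  have h1 : ((Polynomial.X - 1 : Polynomial k)) ^ (p ^ a - 1) = ∑ i ∈ Finset.range (p ^ a), Polynomial.X ^ i := by
    have h0 : (Polynomial.X - 1 : Polynomial k) ≠ 0 := by
      have := Polynomial.X_sub_C_ne_zero (1 : k)
      rwa [Polynomial.C_1] at this
    apply mul_right_cancel₀ h0
    rw [geom_sum_mul, ← pow_succ, Nat.sub_add_cancel (Nat.one_le_iff_ne_zero.2 (pow_pos hp.out.pos a).ne')]
    have := sub_pow_char_pow (R := Polynomial k) Polynomial.X 1 (p := p) (n := a)
    rwa [one_pow] at this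
  have h2 := congrArg (Polynomial.aeval x) h1
  rw [map_pow, map_sub, Polynomial.aeval_X, map_one, map_sum] at h2
  rw [h2]
  exact Finset.sum_congr rfl fun i _ => by rw [map_pow, Polynomial.aeval_X]

end poly

theorem msum {k : Type*} [Field k] {ι : Type*} (s : Finset ι) (c : k) (F : ι → k) :
    c * ∑ i ∈ s, F i = ∑ i ∈ s, c * F i := Finset.mul_sum _ _ _

theorem sum_range_zmod {A : Type*} [AddCommMonoid A] {q : ℕ} [NeZero q] (F : ZMod q → A) :
    ∑ i ∈ Finset.range q, F (i : ZMod q) = ∑ i : ZMod q, F i := by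
  refine Finset.sum_bij (fun (i : ℕ) _ => (i : ZMod q)) (fun _ _ => Finset.mem_univ _) ?_ ?_ (fun _ _ => rfl)
  · intro i hi j hj h
    have h1 := congrArg ZMod.val h
    rwa [ZMod.val_natCast_of_lt (Finset.mem_range.1 hi), ZMod.val_natCast_of_lt (Finset.mem_range.1 hj)] at h1
  · intro b _
    exact ⟨b.val, Finset.mem_range.2 (ZMod.val_lt b), ZMod.natCast_zmod_val b⟩

section free

variable {k : Type*} [Field k] {G : Type*} [Group G] [Fintype G] {p : ℕ} [hp : Fact p.Prime] [CharP k p]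

open Classical in
/-- freeness over the group algebra of a cyclic group of order `p` -/
theorem free_u {u : G} (huo : orderOf u = p) {y : MonoidAlgebra k G}
    (hy : (sg u - 1 : MonoidAlgebra k G) ^ (p - 1) * y = 0) : ∃ v, y = (sg u - 1) * v := by
  classical
  have hgeo : (sg u - 1 : MonoidAlgebra k G) ^ (p - 1) = ∑ i ∈ Finset.range p, sg u ^ i := by
    have := sub_one_pow_pred k (p := p) 1 (sg u : MonoidAlgebra k G)
    rwa [pow_one] at this
  -- transversal
  let Q := Subgroup.zpowers u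
  let T : MonoidAlgebra k G → MonoidAlgebra k G := fun a => KG.ofF fun g =>
    if g = (Quotient.out (Quotient.mk (QuotientGroup.rightRel Q) g)) then a.coeff g else 0
  have hTadd : ∀ a b, T (a + b) = T a + T b := by
    intro a b
    apply KG.ext_c
    intro g
    show (if _ then (a + b).coeff g else 0) = (T a + T b).coeff g
    rw [MonoidAlgebra.coeff_add, MonoidAlgebra.coeff_add, Finsupp.add_apply, Finsupp.add_apply]
    show _ = (if _ then a.coeff g else 0) + (if _ then b.coeff g else 0)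
    split_ifs
    · rfl
    · rw [add_zero]
  let T' : MonoidAlgebra k G →+ MonoidAlgebra k G := ⟨⟨T, by
    have := hTadd 0 0
    rw [add_zero] at this
    exact left_eq_add.1 this⟩, hTadd⟩
  have hT' : ∀ a, T' a = T a := fun a => rfl
  have hrec : ∀ a : MonoidAlgebra k G, ∑ i ∈ Finset.range p, (sg u) ^ i * T ((sg u⁻¹) ^ i * a) = a := by
    intro a
    apply KG.ext_c
    intro g
    rw [MonoidAlgebra.coeff_sum, Finsupp.finset_sum_apply]
    have h1 : ∀ i : ℕ, ((sg u : MonoidAlgebra k G) ^ i * T ((sg u⁻¹) ^ i * a)).coeff g =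
        if (u ^ i)⁻¹ * g = Quotient.out (Quotient.mk (QuotientGroup.rightRel Q) g) then a.coeff g else 0 := by
      intro i
      rw [← Cyf.sg_pow, ← Cyf.sg_pow, sg_mul_c]
      show (if (u ^ i)⁻¹ * g = Quotient.out (Quotient.mk (QuotientGroup.rightRel Q) ((u ^ i)⁻¹ * g)) then _ else 0) = _
      have h2 : Quotient.mk (QuotientGroup.rightRel Q) ((u ^ i)⁻¹ * g) = Quotient.mk (QuotientGroup.rightRel Q) g := by
        apply Quotient.sound
        show QuotientGroup.rightRel Q _ _
        rw [QuotientGroup.rightRel_apply]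
        have : g * ((u ^ i)⁻¹ * g)⁻¹ = u ^ i := by group
        rw [this]
        exact Q.pow_mem (Subgroup.mem_zpowers u) i
      rw [h2]
      split_ifs
      · rw [sg_mul_c, inv_pow, inv_inv, mul_inv_cancel_left]
      · rfl
    rw [Finset.sum_congr rfl fun i _ => h1 i]
    -- the unique i
    obtain ⟨n, hn⟩ : ∃ n : ℕ, u ^ n = g * (Quotient.out (Quotient.mk (QuotientGroup.rightRel Q) g))⁻¹ := by
      have h2 : QuotientGroup.rightRel Q (Quotient.out (Quotient.mk (QuotientGroup.rightRel Q) g)) g :=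
        Quotient.exact (Quotient.out_eq _)
      rw [QuotientGroup.rightRel_apply] at h2
      have h3 : g * (Quotient.out (Quotient.mk (QuotientGroup.rightRel Q) g))⁻¹ ∈ Subgroup.zpowers u := h2
      rw [← mem_powers_iff_mem_zpowers] at h3
      exact h3
    set o := Quotient.out (Quotient.mk (QuotientGroup.rightRel Q) g) with ho
    have hn' : u ^ (n % p) = g * o⁻¹ := by
      rw [← hn, ← huo, pow_mod_orderOf]
    rw [Finset.sum_eq_single_of_mem (n % p) (Finset.mem_range.2 (Nat.mod_lt _ hp.out.pos)), if_pos]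
    · rw [hn']; group
    · intro j hj hne
      rw [if_neg]
      intro h
      apply hne
      have h4 : u ^ j = u ^ (n % p) := by
        rw [hn']
        have : g = u ^ j * o := by rw [← h]; group
        rw [this, mul_inv_cancel_right]
      have h5 := pow_injOn_Iio_orderOf (x := u)
      refine h5 ?_ ?_ h4
      · rw [Set.mem_Iio, huo]; exact Finset.mem_range.1 hj
      · rw [Set.mem_Iio, huo]; exact Nat.mod_lt _ hp.out.pos
  have hsum0 : ∑ i ∈ Finset.range p, (sg u⁻¹ : MonoidAlgebra k G) ^ i * y = 0 := by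
    rw [hgeo, Finset.sum_mul] at hy
    rw [← hy]
    have e1 : ∀ i : ℕ, (sg u : MonoidAlgebra k G) ^ i * y = sg (u ^ i) * y := fun i => by rw [Cyf.sg_pow]
    have e2 : ∀ i : ℕ, (sg u⁻¹ : MonoidAlgebra k G) ^ i * y = sg (u ^ (-(i : ℤ))) * y := fun i => by
      rw [← Cyf.sg_pow, zpow_neg, zpow_natCast, inv_pow]
    rw [Finset.sum_congr rfl fun i _ => e1 i, Finset.sum_congr rfl fun i _ => e2 i]
    haveI : NeZero p := ⟨hp.out.ne_zero⟩
    have hpu : ∀ a b : ℤ, ((a : ZMod p) = (b : ZMod p)) → u ^ a = u ^ b := by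
      intro a b hab
      rw [zpow_eq_zpow_iff_modEq, huo]
      exact (ZMod.intCast_eq_intCast_iff a b p).1 hab
    have hF : ∀ i : ℕ, u ^ (-(i : ℤ)) = u ^ ((-(i : ZMod p)).val) := by
      intro i
      rw [← zpow_natCast]
      apply hpu
      push_cast
      rw [ZMod.natCast_zmod_val]
    have hG : ∀ i : ℕ, u ^ i = u ^ ((i : ZMod p).val) := by
      intro i
      rw [← zpow_natCast, ← zpow_natCast]
      apply hpu
      push_cast
      rw [ZMod.natCast_zmod_val]
    have s1 := sum_range_zmod (q := p) (fun i => (sg (u ^ (i.val)) : MonoidAlgebra k G) * y)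
    have s2 := sum_range_zmod (q := p) (fun i => (sg (u ^ ((-i).val)) : MonoidAlgebra k G) * y)
    have s3 : ∑ i : ZMod p, (sg (u ^ ((-i).val)) : MonoidAlgebra k G) * y = ∑ i : ZMod p, (sg (u ^ (i.val)) : MonoidAlgebra k G) * y :=
      Equiv.sum_comp (Equiv.neg (ZMod p)) (fun i => (sg (u ^ (i.val)) : MonoidAlgebra k G) * y)
    rw [Finset.sum_congr rfl fun i _ => by rw [hF i], Finset.sum_congr rfl (fun i _ => by rw [hG i] :
      ∀ i ∈ Finset.range p, (sg (u ^ i) : MonoidAlgebra k G) * y = sg (u ^ ((i : ZMod p).val)) * y), s2, s1, s3]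
  have hT0 : ∑ i ∈ Finset.range p, T ((sg u⁻¹) ^ i * y) = 0 := by
    have := congrArg T' hsum0
    rw [map_sum, map_zero] at this
    exact this
  have hdvd : ∀ i : ℕ, ∃ w : MonoidAlgebra k G, sg u ^ i - 1 = (sg u - 1) * w := fun i =>
    ⟨∑ j ∈ Finset.range i, sg u ^ j, by rw [mul_geom_sum]⟩
  choose w hw using hdvd
  refine ⟨∑ i ∈ Finset.range p, w i * T ((sg u⁻¹) ^ i * y), ?_⟩
  rw [Finset.mul_sum]
  conv_lhs => rw [← hrec y]
  rw [← sub_eq_zero, ← Finset.sum_sub_distrib, ← hT0]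
  refine Finset.sum_congr rfl fun i _ => ?_
  rw [← mul_assoc, ← hw i]
  noncomm_ring

end free

section z

variable {p : ℕ} {M : Ideal AlgInt} {G : Type*} [Group G] [Fintype G] [hMax : M.IsMaximal]
  [hp : Fact p.Prime] [hch : CharP (KM M) p] {P : Subgroup G} {B : Set (IrrCharacter G)}
  {q : ℕ} [NeZero q] {φ : Multiplicative (ZMod q) ≃* P} {χ : ZMod q → IrrCharacter G}

variable (M) in
/-- the generator of the radical -/
noncomputable def zz (χ : ZMod q → IrrCharacter G) : MonoidAlgebra (KM M) G := cb M χ 1 - cb M χ 0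

theorem x_pow (hf : Fam2 p M B φ χ) (hk : MemLocalRing M ((χ 0 : G → ℂ) 1 / (Nat.card G : ℂ) * q)) (n : ℕ) :
    (cb M χ 1 + (1 - cb M χ 0)) ^ n = cb M χ n + (1 - cb M χ 0) := by
  induction n with
  | zero => rw [pow_zero, Nat.cast_zero]; abel
  | succ n ih =>
    rw [pow_succ, ih, Nat.cast_succ]
    have h1 := cb_mul hf hk (n : ZMod q) 1
    have h2 := cb_mul hf hk (n : ZMod q) 0
    have h3 := cb_mul hf hk (0 : ZMod q) 1
    have h4 := cb_mul hf hk (0 : ZMod q) 0
    rw [add_zero] at h2 h4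
    rw [zero_add] at h3
    have e : (cb M χ (n : ZMod q) + (1 - cb M χ 0)) * (cb M χ 1 + (1 - cb M χ 0)) =
        cb M χ (n : ZMod q) * cb M χ 1 + (cb M χ (n : ZMod q) - cb M χ (n : ZMod q) * cb M χ 0) +
        (cb M χ 1 - cb M χ 0 * cb M χ 1) + (1 - cb M χ 0 - cb M χ 0 + cb M χ 0 * cb M χ 0) := by noncomm_ring
    rw [e, h1, h2, h3, h4]
    abel

theorem zz_eq : zz M χ = (cb M χ 1 + (1 - cb M χ 0)) - 1 := by
  unfold zz; abel

theorem zz_pow_p (hf : Fam2 p M B φ χ) (hk : MemLocalRing M ((χ 0 : G → ℂ) 1 / (Nat.card G : ℂ) * q)) (b : ℕ) :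
    zz M χ ^ p ^ b = cb M χ ((p ^ b : ℕ) : ZMod q) - cb M χ 0 := by
  rw [zz_eq, sub_one_pow (KM M), x_pow hf hk]
  abel

theorem zz_pow_pred (hf : Fam2 p M B φ χ) (hk : MemLocalRing M ((χ 0 : G → ℂ) 1 / (Nat.card G : ℂ) * q)) {a : ℕ}
    (ha : 1 ≤ a) (hq : q = p ^ a) : zz M χ ^ (q - 1) = ∑ i : ZMod q, cb M χ i := by
  have h1 := sub_one_pow_pred (KM M) (p := p) a (cb M χ 1 + (1 - cb M χ 0))
  rw [← hq] at h1
  rw [zz_eq, h1, Finset.sum_congr rfl fun i _ => x_pow hf hk i, Finset.sum_add_distrib, sum_range_zmod (fun i => cb M χ i),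
    Finset.sum_const, Finset.card_range]
  have h2 : (q : ℕ) • (1 - cb M χ (0 : ZMod q)) = 0 := by
    have h3 : ((q : ℕ) : KM M) = 0 := by
      rw [hq, Nat.cast_pow, CharP.cast_eq_zero, zero_pow (by omega)]
    have h4 : (q : ℕ) • (1 - cb M χ (0 : ZMod q)) = ((q : ℕ) : KM M) • (1 - cb M χ (0 : ZMod q)) := by
      rw [Nat.cast_smul_eq_nsmul]
    rw [h4, h3, zero_smul]
  rw [h2, add_zero]

theorem zz_comm (x : MonoidAlgebra (KM M) G) : x * zz M χ = zz M χ * x := by
  unfold zz
  rw [mul_sub, sub_mul, cb_comm, cb_comm]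

theorem zz_mul_f (hf : Fam2 p M B φ χ) (hk : MemLocalRing M ((χ 0 : G → ℂ) 1 / (Nat.card G : ℂ) * q)) :
    zz M χ * cb M χ 0 = zz M χ := by
  unfold zz
  rw [sub_mul, cb_mul hf hk, cb_mul hf hk, add_zero, add_zero]

theorem zz_nil (hf : Fam2 p M B φ χ) (hk : MemLocalRing M ((χ 0 : G → ℂ) 1 / (Nat.card G : ℂ) * q)) {a : ℕ}
    (hq : q = p ^ a) : zz M χ ^ q = 0 := by
  have h1 := zz_pow_p (p := p) hf hk a
  rw [← hq, ZMod.natCast_self, sub_self] at h1
  exact h1

end z

section jac

variable {p : ℕ} {M : Ideal AlgInt} {G : Type*} [Group G] [Fintype G] [hMax : M.IsMaximal]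
  [hp : Fact p.Prime] [hch : CharP (KM M) p] {B : Set (IrrCharacter G)}

set_option maxHeartbeats 1600000 in
/-- characters of a block with one simple module vanish on the radical -/
theorem jac_zero (hM : IsPModular p M) (hB : IsPBlock M B) (hr : blockRank p B = 1) {χ₀ : IrrCharacter G}
    (hχ : χ₀ ∈ B) {r : MonoidAlgebra (KM M) G} (hr' : r ∈ Ring.jacobson (MonoidAlgebra (KM M) G)) :
    ∑ x : G, r.coeff x * rd M ((χ₀ : G → ℂ) x) = 0 := by
  classical
  haveI : IsAlgClosed (KM M) := isAlgClosed_KM M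
  haveI : Fintype (IrrCharacter G) := Fintype.ofFinite _
  set e := epG M B with he
  have hblk := isBlk_epG (M := M) hB
  have hecomm : ∀ a : MonoidAlgebra (KM M) G, a * e = e * a := fun a =>
    (comm_of (H := ⊤) hblk.mem.2 (fun x _ => Subgroup.mem_top x)).symm
  -- a simple module
  obtain ⟨J, hJ, hJle⟩ := Ideal.exists_le_maximal (Ideal.span {(1 - e : MonoidAlgebra (KM M) G)}) (by
    intro h
    rw [Ideal.eq_top_iff_one] at h
    obtain ⟨a, ha⟩ := Submodule.mem_span_singleton.1 h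
    apply hblk.ne
    have h1 : a * (1 - e) * e = 1 * e := congrArg (· * e) ha
    rw [mul_assoc, sub_mul, one_mul, hblk.idem, sub_self, mul_zero] at h1
    exact h1.symm)
  let S := MonoidAlgebra (KM M) G ⧸ J
  haveI hS : IsSimpleModule (MonoidAlgebra (KM M) G) S := isSimpleModule_iff_isCoatom.2 hJ.out
  haveI : FiniteDimensional (KM M) S :=
    Module.Finite.of_surjective ((Submodule.mkQ J).restrictScalars (KM M)) (Submodule.mkQ_surjective _)
  haveI : Nontrivial S := IsSimpleModule.nontrivial (MonoidAlgebra (KM M) G) _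
  have heS : ∀ s : S, e • s = s := by
    intro s
    obtain ⟨a, rfl⟩ := Submodule.mkQ_surjective J s
    rw [← map_smul, smul_eq_mul, ← sub_eq_zero, ← map_sub, ← LinearMap.mem_ker, Submodule.ker_mkQ, ← hecomm]
    have : a * e - a = -(a * (1 - e)) := by noncomm_ring
    rw [this]
    exact J.neg_mem (J.mul_mem_left a (hJle (Ideal.subset_span rfl)))
  let ρ : G →* Module.End (KM M) S := rep (k := KM M) S
  let T : Bool → G → KM M := fun i g => if i then rd M ((χ₀ : G → ℂ) g) else LinearMap.trace (KM M) S (ρ g)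
  have hTt : ∀ g, T true g = rd M ((χ₀ : G → ℂ) g) := fun _ => rfl
  have hTf : ∀ g, T false g = LinearMap.trace (KM M) S (ρ g) := fun _ => rfl
  have hint : ∀ x, MemLocalRing M ((χ₀ : G → ℂ) x) := fun x =>
    memLocalRing_of_integral hMax.ne_top (IsChar.isIntegral (IsIrr.isCharacter χ₀.2) x)
  have hdep : ¬ ∀ c : Bool → KM M, (∀ g, ∑ i, c i * T i g = 0) → ∀ i, c i = 0 := by
    intro hind
    have h1 := card_le hM hB T hind ?_ ?_ ?_
    · rw [hr, Fintype.card_bool] at h1; omega
    · intro i a g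
      cases i
      · exact trace_conj' ρ a g
      · rw [hTt, hTt, IsIrr.isClass χ₀.2]
    · intro i g
      cases i
      · exact trace_ppr ρ g
      · rw [hTt, hTt, rd_eq_iff (hint _) (hint _)]
        obtain ⟨x, h1, h2, h3, h4⟩ := ppr_spec (p := p) g
        have := Cfsg.Agent.H10.BlockHZ.char_sub_mem hM (IsIrr.isCharacter χ₀.2) h2 h3 h4
        rwa [h1] at this
    · intro i x
      cases i
      · have := central_trace ρ (fun g => rd M (blockCoeff B g)) 1 (fun s => by
          rw [one_smul, LinearMap.sum_apply]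
          have h1 := heS s
          rw [smul_eq_sum] at h1
          exact h1) x
        rw [one_mul] at this
        exact this
      · have h1 := lin_eB_mul_of_mem hχ (MonoidAlgebra.single x (1:ℂ))
        rw [lin_mul, lin_single, one_mul] at h1
        have h2 : ∑ g : G, blockCoeff B g * (χ₀ : G → ℂ) (g * x) = (χ₀ : G → ℂ) x := by
          rw [← h1]
          refine Finset.sum_congr rfl fun g _ => ?_
          rw [eB_coeff, Finset.sum_eq_single_of_mem x (Finset.mem_univ _)]
          · rw [MonoidAlgebra.coeff_single, Finsupp.single_eq_same, mul_one]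
          · intro y _ hy
            rw [MonoidAlgebra.coeff_single, Finsupp.single_eq_of_ne hy, mul_zero, zero_mul]
        show ∑ g : G, rd M (blockCoeff B g) * rd M ((χ₀ : G → ℂ) (g * x)) = rd M ((χ₀ : G → ℂ) x)
        rw [← h2, rd_sum _ _ fun g _ => ring_mul (blockCoeff_mem hB g) (hint _)]
        exact Finset.sum_congr rfl fun g _ => (rd_mul (blockCoeff_mem hB g) (hint _)).symm
  push Not at hdep
  obtain ⟨c, hc, i, hi⟩ := hdep
  have hc' : ∀ g, c true * rd M ((χ₀ : G → ℂ) g) + c false * LinearMap.trace (KM M) S (ρ g) = 0 := by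
    intro g
    have := hc g
    rwa [Fintype.sum_bool] at this
  have hct : c true ≠ 0 := by
    intro h0
    have hcf : c false ≠ 0 := by
      cases i
      · exact hi
      · exact absurd h0 hi
    have h1 := rep_indep (k := KM M) (ι := Unit) (fun _ => S) (fun _ => ρ) ?_ ?_ (fun _ => 1) ?_ ()
    · exact one_ne_zero h1
    · intro _ U hU
      let U' : Submodule (MonoidAlgebra (KM M) G) S :=
        { carrier := U
          add_mem' := U.add_mem
          zero_mem' := U.zero_mem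
          smul_mem' := fun a s hs => by
            rw [smul_eq_sum]
            exact U.sum_mem fun g _ => U.smul_mem _ (hU g s hs) }
      rcases eq_bot_or_eq_top U' with h1 | h1
      · left
        rw [Submodule.eq_bot_iff]
        intro s hs
        have : s ∈ U' := hs
        rw [h1] at this
        exact (Submodule.mem_bot _).1 this
      · right
        rw [Submodule.eq_top_iff']
        intro s
        have : s ∈ U' := by rw [h1]; trivial
        exact this
    · intro i j hij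
      exact absurd (Subsingleton.elim i j) hij
    · intro g
      have := hc' g
      rw [h0, zero_mul, zero_add] at this
      rw [Fintype.sum_unique, one_mul]
      exact (mul_eq_zero.1 this).resolve_left hcf
  have hJr : ∀ s : S, r • s = 0 := by
    intro s
    exact Module.mem_annihilator.1 (IsSemisimpleModule.jacobson_le_annihilator (MonoidAlgebra (KM M) G) S hr') s
  have htr : ∑ x : G, r.coeff x * LinearMap.trace (KM M) S (ρ x) = 0 := by
    have h1 : (Algebra.lsmul (KM M) (KM M) S r : Module.End (KM M) S) = 0 := by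
      ext s
      exact hJr s
    have h2 := lsmul_eq_sum (S := S) r
    rw [h1] at h2
    have h3 := congrArg (LinearMap.trace (KM M) S) h2
    rw [map_zero, map_sum] at h3
    rw [h3]
    exact Finset.sum_congr rfl fun x _ => by rw [map_smul, smul_eq_mul]
  have h9 : c true * ∑ x : G, r.coeff x * rd M ((χ₀ : G → ℂ) x) = 0 := by
    have h10 : c true * ∑ x : G, r.coeff x * rd M ((χ₀ : G → ℂ) x) +
        c false * ∑ x : G, r.coeff x * LinearMap.trace (KM M) S (ρ x) = 0 := by
      rw [msum, msum, ← Finset.sum_add_distrib]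
      refine Finset.sum_eq_zero fun x _ => ?_
      have := hc' x
      calc _ = r.coeff x * (c true * rd M ((χ₀ : G → ℂ) x) + c false * LinearMap.trace (KM M) S (ρ x)) := by ring
        _ = 0 := by rw [this, mul_zero]
    rwa [htr, mul_zero, add_zero] at h10
  exact (mul_eq_zero.1 h9).resolve_left hct

end jac

section main

variable {p : ℕ} {M : Ideal AlgInt} {G : Type*} [Group G] [Fintype G] [hMax : M.IsMaximal]
  [hp : Fact p.Prime] [hch : CharP (KM M) p] {P : Subgroup G} {B : Set (IrrCharacter G)}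
  {q : ℕ} [NeZero q] {φ : Multiplicative (ZMod q) ≃* P} {χ : ZMod q → IrrCharacter G}

/-- the top power of `z` kills the radical -/
theorem top_mul_jac (hM : IsPModular p M) (hB : IsPBlock M B) (hr : blockRank p B = 1)
    (hf : Fam2 p M B φ χ) (hk : MemLocalRing M ((χ 0 : G → ℂ) 1 / (Nat.card G : ℂ) * q))
    {a : ℕ} (ha : 1 ≤ a) (hq : q = p ^ a) {r : MonoidAlgebra (KM M) G}
    (hr' : r ∈ Ring.jacobson (MonoidAlgebra (KM M) G)) : zz M χ ^ (q - 1) * r = 0 := by
  rw [zz_pow_pred hf hk ha hq]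
  apply KG.ext_c
  intro g
  rw [mul_c', MonoidAlgebra.coeff_zero, Finsupp.zero_apply]
  have h1 : r * sg g⁻¹ ∈ Ring.jacobson (MonoidAlgebra (KM M) G) := Ideal.IsTwoSided.mul_mem_of_left _ hr'
  have h2 := jac_zero hM hB hr (hf.mem 0) h1
  have h3 : ∑ x : G, (r * sg g⁻¹ : MonoidAlgebra (KM M) G).coeff x * rd M ((χ 0 : G → ℂ) x) =
      ∑ y : G, r.coeff y * rd M ((χ 0 : G → ℂ) (y * g⁻¹)) := by
    rw [← Equiv.sum_comp (Equiv.mulRight g⁻¹)]
    refine Finset.sum_congr rfl fun y _ => ?_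
    rw [mul_sg_c]
    simp only [Equiv.coe_mulRight, inv_inv, inv_mul_cancel_right]
  rw [h3] at h2
  have h4 : ∀ x : G, (∑ i : ZMod q, cb M χ i).coeff (g * x⁻¹) * r.coeff x =
      rd M ((χ 0 : G → ℂ) 1 / (Nat.card G : ℂ) * q) * (r.coeff x * rd M ((χ 0 : G → ℂ) (x * g⁻¹))) := by
    intro x
    rw [sum_cb hf hk]
    have : (g * x⁻¹)⁻¹ = x * g⁻¹ := by group
    rw [this]; ring
  rw [Finset.sum_congr rfl fun x _ => h4 x, ← msum, h2, mul_zero]

set_option maxHeartbeats 1600000 in
/-- the radical of the block algebra is generated by `z` -/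
theorem rad_le (hM : IsPModular p M) (hB : IsPBlock M B) (hr : blockRank p B = 1)
    (hf : Fam2 p M B φ χ) (hk : MemLocalRing M ((χ 0 : G → ℂ) 1 / (Nat.card G : ℂ) * q))
    {a : ℕ} (ha : 1 ≤ a) (hq : q = p ^ a)
    (hu : ∀ c : G, c * wp φ ((p ^ (a - 1) : ℕ) : ZMod q) = wp φ ((p ^ (a - 1) : ℕ) : ZMod q) * c)
    (huo : orderOf (wp φ ((p ^ (a - 1) : ℕ) : ZMod q)) = p) {r : MonoidAlgebra (KM M) G}
    (hr' : r ∈ Ring.jacobson (MonoidAlgebra (KM M) G)) : ∃ v, r * epG M B = zz M χ * v := by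
  set z := zz M χ with hz
  set f := epG M B with hf0
  set u := wp φ ((p ^ (a - 1) : ℕ) : ZMod q) with hu0
  set m := p ^ (a - 1) with hm
  have hmpos : 0 < m := pow_pos hp.out.pos _
  have hqm : q = m * p := by rw [hq, hm, ← pow_succ]; congr 1; omega
  have hfz : cb M χ 0 = f := cb_zero hf
  have hff : f * f = f := by rw [← hfz, cb_mul hf hk, add_zero]
  have hzf : z * f = z := by rw [← hfz]; exact zz_mul_f hf hk
  have hfc : ∀ x : MonoidAlgebra (KM M) G, x * f = f * x := fun x => by rw [← hfz]; exact cb_comm 0 x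
  have hzc : ∀ x : MonoidAlgebra (KM M) G, x * z = z * x := fun x => zz_comm x
  have hzm : z ^ m = (sg u - 1) * f := by
    rw [hm, hz, zz_pow_p hf hk, sub_mul, one_mul, hf0, cb_cen hM hf hk hu ⟨1, by rw [pow_one]; exact huo⟩, ← hf0, hfz]
  have hsu : ∀ x : MonoidAlgebra (KM M) G, x * sg u = sg u * x := by
    intro x
    apply KG.ext_c
    intro g
    rw [mul_sg_c, sg_mul_c]
    congr 1
    have := hu (u⁻¹ * g * u⁻¹)
    have e1 : u⁻¹ * g * u⁻¹ * u = u⁻¹ * g := by group
    have e2 : u * (u⁻¹ * g * u⁻¹) = g * u⁻¹ := by group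
    rw [e1, e2] at this
    exact this.symm
  have hzmp : z ^ (m * (p - 1)) = (sg u - 1) ^ (p - 1) * f := by
    rw [pow_mul, hzm]
    have hcomm : Commute (sg u - 1 : MonoidAlgebra (KM M) G) f := by
      show (sg u - 1) * f = f * (sg u - 1)
      rw [hfc]
    rw [hcomm.mul_pow]
    congr 1
    have h2 := hp.out.two_le
    have : ∀ n : ℕ, f ^ (n + 1) = f := by
      intro n
      induction n with
      | zero => rw [zero_add, pow_one]
      | succ n ih => rw [pow_succ, ih, hff]
    obtain ⟨n, hn⟩ : ∃ n, p - 1 = n + 1 := ⟨p - 2, by omega⟩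
    rw [hn, this]
  -- annihilators
  have hann : ∀ y : MonoidAlgebra (KM M) G, f * y = y → z ^ (m * (p - 1)) * y = 0 → ∃ v, f * v = v ∧ y = z ^ m * v := by
    intro y hy h0
    rw [hzmp, mul_assoc, hy] at h0
    obtain ⟨v, hv⟩ := free_u huo h0
    refine ⟨f * v, by rw [← mul_assoc, hff], ?_⟩
    rw [hzm, mul_assoc, ← mul_assoc f f v, hff]
    conv_lhs => rw [← hy, hv]
    rw [← mul_assoc, ← hfc, mul_assoc]
  set y := r * f with hy
  have hyf : f * y = y := by rw [hy, ← mul_assoc, ← hfc r, mul_assoc, hff]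
  have htop : z ^ (q - 1) * y = 0 := by
    rw [hy, ← mul_assoc, hz, top_mul_jac hM hB hr hf hk ha hq hr', zero_mul]
  have hexp : q - 1 = m * (p - 1) + (m - 1) := by
    rw [hqm]
    have h2 := hp.out.two_le
    obtain ⟨n, hn⟩ : ∃ n, p = n + 1 := ⟨p - 1, by omega⟩
    rw [hn, mul_add, mul_one, Nat.add_sub_cancel]
    omega
  have hfpow : ∀ n : ℕ, f * (z ^ n * y) = z ^ n * y := by
    intro n
    rw [← mul_assoc, ← hfc, mul_assoc, hyf]
  rw [hexp, pow_add, mul_assoc] at htop
  obtain ⟨v, hv, e1⟩ := hann _ (hfpow _) htop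
  have e2 : z ^ (m - 1) * (y - z * v) = 0 := by
    rw [mul_sub, ← mul_assoc (z ^ (m - 1)) z v, ← pow_succ, Nat.sub_add_cancel hmpos, e1, sub_self]
  have e3 : z ^ (m * (p - 1)) * (y - z * v) = 0 := by
    have h2 := hp.out.two_le
    have h3 : m - 1 ≤ m * (p - 1) := by
      have : m * 1 ≤ m * (p - 1) := Nat.mul_le_mul_left m (by omega)
      omega
    rw [← Nat.sub_add_cancel h3, pow_add, mul_assoc, e2, mul_zero]
  obtain ⟨w, -, e4⟩ := hann (y - z * v) (by
    rw [mul_sub, hyf, ← mul_assoc, ← hfc z, hzf]) e3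
  refine ⟨v + z ^ (m - 1) * w, ?_⟩
  rw [mul_add, ← mul_assoc, ← pow_succ', Nat.sub_add_cancel hmpos, ← e4]
  abel

end main

end Cfsg.Agent.H25.Cyt2
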