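import Mathlib
import Cfsg.Agent.H25_Cyt2
import Cfsg.Agent.H25_Up

/-!
H25_Cyu: relative semisimplicity and normality of the generator of the radical.
-/

set_option autoImplicit false
set_option linter.unusedSectionVars false

open scoped ComplexConjugate

namespace Cfsg.Agent.H25.Cyu

open Module Cfsg Cfsg.Agent.H25.KG Cfsg.Agent.H25.Up Cfsg.Agent.H25.Cya Cfsg.Agent.H25.Cyb Cfsg.Agent.H9.BrMod4

section compl

variable {k : Type*} [Field k] {G : Type*} [Group G] [Fintype G]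
variable {S : Type*} [AddCommGroup S] [Module (MonoidAlgebra k G) S] [Module k S] [IsScalarTower k (MonoidAlgebra k G) S]

set_option maxHeartbeats 800000 in
/-- complements in sections killed by the radical -/
theorem exists_compl {C : Subgroup G} {X Y K : Submodule k S} (hX : St C X) (hY : St C Y) (hK : St C K)
    (hXY : X ≤ Y) (hYK : Y ≤ K)
    (hJ : ∀ r ∈ Ring.jacobson (MonoidAlgebra k C), ∀ v ∈ K, up k C r • v ∈ X) :
    ∃ Y' : Submodule k S, St C Y' ∧ X ≤ Y' ∧ Y' ≤ K ∧ Y ⊔ Y' = K ∧ Y ⊓ Y' = X := by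
  classical
  haveI : Fintype C := Fintype.ofFinite _
  let R := MonoidAlgebra k C
  letI instR : Module R S := Module.compHom S (up k C).toRingHom
  have hsm : ∀ (r : R) (s : S), r • s = up k C r • s := fun r s => rfl
  have mk : ∀ (U : Submodule k S), St C U → ∃ U' : Submodule R S, ∀ s, s ∈ U' ↔ s ∈ U := fun U hU =>
    ⟨{ carrier := U
       add_mem' := U.add_mem
       zero_mem' := U.zero_mem
       smul_mem' := fun r s hs => by
        show up k C r • s ∈ U
        exact hU.smul (up_supp r) hs }, fun s => Iff.rfl⟩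
  obtain ⟨X', hX'⟩ := mk X hX
  obtain ⟨Y', hY'⟩ := mk Y hY
  obtain ⟨K', hK'⟩ := mk K hK
  let X'' : Submodule R K' := X'.comap K'.subtype
  let N := K' ⧸ X''
  have htor : Module.IsTorsionBySet R N (Ring.jacobson R : Set R) := by
    rintro n ⟨r, hr⟩
    obtain ⟨v, rfl⟩ := Submodule.mkQ_surjective X'' n
    show r • (Submodule.mkQ X'' v) = 0
    rw [← map_smul, ← LinearMap.mem_ker, Submodule.ker_mkQ]
    show ((r • v : K') : S) ∈ X'
    rw [hX', Submodule.coe_smul, hsm]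
    exact hJ r hr v ((hK' v).1 v.2)
  haveI : IsArtinianRing R := by
    haveI : IsArtinian k R := inferInstance
    exact isArtinian_of_tower k this
  letI : Module (R ⧸ Ring.jacobson R) N := htor.module
  haveI : IsSemisimpleModule (R ⧸ Ring.jacobson R) N := inferInstance
  haveI : IsSemisimpleModule R N := htor.isSemisimpleModule_iff.1 this
  obtain ⟨W, hW⟩ := exists_isCompl ((Y'.comap K'.subtype).map X''.mkQ)
  have hkr : ∀ (c : k) (s : S), c • s = (c • (1 : R)) • s := by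
    intro c s
    rw [hsm, map_smul, map_one, smul_assoc, one_smul]
  let Y2 : Submodule k S :=
    { carrier := {s | ∃ h : s ∈ K', X''.mkQ ⟨s, h⟩ ∈ W}
      add_mem' := by
        rintro s t ⟨hs, hs'⟩ ⟨ht, ht'⟩
        refine ⟨K'.add_mem hs ht, ?_⟩
        have : (⟨s + t, K'.add_mem hs ht⟩ : K') = ⟨s, hs⟩ + ⟨t, ht⟩ := rfl
        rw [this, map_add]
        exact W.add_mem hs' ht'
      zero_mem' := by
        refine ⟨K'.zero_mem, ?_⟩
        have : (⟨0, K'.zero_mem⟩ : K') = 0 := rfl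
        rw [this, map_zero]
        exact W.zero_mem
      smul_mem' := by
        rintro c s ⟨hs, hs'⟩
        have h1 : c • s ∈ K' := by rw [hkr]; exact K'.smul_mem _ hs
        refine ⟨h1, ?_⟩
        have : (⟨c • s, h1⟩ : K') = (c • (1 : R)) • ⟨s, hs⟩ := Subtype.ext (hkr c s)
        rw [this, map_smul]
        exact W.smul_mem _ hs' }
  have hmem : ∀ s, s ∈ Y2 ↔ ∃ h : s ∈ K', X''.mkQ ⟨s, h⟩ ∈ W := fun s => Iff.rfl
  have hXK : X ≤ K := hXY.trans hYK
  have hz : ∀ s (h : s ∈ K'), X''.mkQ ⟨s, h⟩ = 0 ↔ s ∈ X := by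
    intro s h
    rw [← LinearMap.mem_ker, Submodule.ker_mkQ, ← hX']
    rfl
  refine ⟨Y2, ?_, ?_, ?_, ?_, ?_⟩
  · rintro c hc s ⟨hs, hs'⟩
    have e1 : (sg c : MonoidAlgebra k G) = up k C (MonoidAlgebra.single ⟨c, hc⟩ 1) := by
      apply KG.ext_c
      intro g
      rw [sg_c]
      by_cases hg : g ∈ C
      · rw [up_c' _ hg, MonoidAlgebra.coeff_single, Finsupp.single_apply]
        simp only [Subtype.mk.injEq]
      · rw [up_c_not _ hg, if_neg (fun h => hg (by rw [← h]; exact hc))]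
    have h1 : (sg c : MonoidAlgebra k G) • s ∈ K' := by rw [e1]; exact K'.smul_mem _ hs
    refine (hmem _).2 ⟨h1, ?_⟩
    have : (⟨(sg c : MonoidAlgebra k G) • s, h1⟩ : K') = (MonoidAlgebra.single ⟨c, hc⟩ 1 : R) • ⟨s, hs⟩ :=
      Subtype.ext (by
        show (sg c : MonoidAlgebra k G) • s = _
        rw [e1]; rfl)
    rw [this, map_smul]
    exact W.smul_mem _ hs'
  · intro x hx
    have h1 : x ∈ K' := (hK' x).2 (hXK hx)
    exact (hmem _).2 ⟨h1, by rw [(hz x h1).2 hx]; exact W.zero_mem⟩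
  · intro s hs
    obtain ⟨h, -⟩ := (hmem _).1 hs
    exact (hK' s).1 h
  · apply le_antisymm
    · refine sup_le hYK ?_
      intro s hs
      obtain ⟨h, -⟩ := (hmem _).1 hs
      exact (hK' s).1 h
    · intro v hv
      have hv' : v ∈ K' := (hK' v).2 hv
      have h1 : X''.mkQ ⟨v, hv'⟩ ∈ ((Y'.comap K'.subtype).map X''.mkQ) ⊔ W := by
        rw [hW.sup_eq_top]; trivial
      obtain ⟨_, ⟨y, hy, rfl⟩, w, hw, e⟩ := Submodule.mem_sup.1 h1
      have hyY : (y : S) ∈ Y := (hY' _).1 hy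
      have e2 : v = (y : S) + (v - y) := by abel
      rw [e2]
      refine Submodule.add_mem_sup hyY ((hmem _).2 ⟨K'.sub_mem hv' y.2, ?_⟩)
      have : (⟨v - y, K'.sub_mem hv' y.2⟩ : K') = ⟨v, hv'⟩ - y := rfl
      rw [this, map_sub, ← e, add_sub_cancel_left]
      exact hw
  · ext v
    constructor
    · rintro ⟨hv, hv2⟩
      obtain ⟨hvK, hvW⟩ := (hmem _).1 hv2
      rw [← hz v hvK]
      have h1 : X''.mkQ ⟨v, hvK⟩ ∈ ((Y'.comap K'.subtype).map X''.mkQ) ⊓ W :=
        ⟨⟨⟨v, hvK⟩, (hY' v).2 hv, rfl⟩, hvW⟩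
      rw [hW.inf_eq_bot] at h1
      exact (Submodule.mem_bot _).1 h1
    · intro hv
      have h1 : v ∈ K' := (hK' v).2 (hXK hv)
      exact ⟨hXY hv, (hmem _).2 ⟨h1, by rw [(hz v h1).2 hv]; exact W.zero_mem⟩⟩

end compl

section maschke

variable {k : Type*} [Field k] {G : Type*} [Group G] [Fintype G]
variable {S : Type*} [AddCommGroup S] [Module (MonoidAlgebra k G) S] [Module k S] [IsScalarTower k (MonoidAlgebra k G) S]

/-- projections modulo a subspace -/
theorem exists_prj2 {X Y Y' K : Submodule k S} (h1 : X ≤ Y) (h2 : X ≤ Y') (h3 : Y ⊔ Y' = K) (h4 : Y ⊓ Y' = X) :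
    ∃ π : S →ₗ[k] S, (∀ y ∈ Y, π y = y) ∧ (∀ y ∈ Y', π y ∈ X) ∧ ∀ s, π s ∈ Y := by
  obtain ⟨Z, hZ⟩ := Submodule.exists_isCompl (X.comap Y'.subtype)
  have hYZ : Y ⊓ Z.map Y'.subtype = ⊥ := by
    rw [Submodule.eq_bot_iff]
    rintro _ ⟨hv, ⟨z, hz, rfl⟩⟩
    have h5 : (z : S) ∈ X := by rw [← h4]; exact ⟨hv, z.2⟩
    have h6 : z ∈ X.comap Y'.subtype ⊓ Z := ⟨h5, hz⟩
    rw [hZ.inf_eq_bot] at h6
    have h7 := (Submodule.mem_bot _).1 h6
    rw [h7]; rfl
  obtain ⟨π, hπ1, hπ2, hπ3⟩ := exists_prj hYZ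
  refine ⟨π, hπ1, ?_, hπ3⟩
  intro y hy
  have h5 : (⟨y, hy⟩ : Y') ∈ X.comap Y'.subtype ⊔ Z := by rw [hZ.sup_eq_top]; trivial
  obtain ⟨x, hx, z, hz, e⟩ := Submodule.mem_sup.1 h5
  have e2 : y = (x : S) + (z : S) := by
    have := congrArg Subtype.val e
    exact this.symm
  have hxX : (x : S) ∈ X := hx
  have hz0 : π (z : S) = 0 := hπ2 _ ⟨z, hz, rfl⟩
  rw [e2, map_add, hπ1 _ (h1 hxX), hz0, add_zero]
  exact hxX

open Classical in
/-- relative Maschke theorem for index prime to `p` -/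
theorem ss_rel {C H : Subgroup G} (hCH : C ≤ H) (he : ((C.relIndex H : ℕ) : k) ≠ 0) {z : MonoidAlgebra k G}
    {V : Submodule k S}
    (hcomp : ∀ X Y K : Submodule k S, St H X → St H Y → St H K → X ≤ Y → Y ≤ K → K ≤ V → K.map (lm S z) ≤ X →
      ∃ Y' : Submodule k S, St C Y' ∧ X ≤ Y' ∧ Y' ≤ K ∧ Y ⊔ Y' = K ∧ Y ⊓ Y' = X) : SS H z V := by
  intro X Y K hX hY hK hXY hYK hKV hzK
  obtain ⟨Y₁, hY1, hXY1, hY1K, hsup, hinf⟩ := hcomp X Y K hX hY hK hXY hYK hKV hzK
  obtain ⟨π, hπY, hπY1, hπm⟩ := exists_prj2 hXY hXY1 hsup hinf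
  -- equivariance of π modulo X
  have hπe : ∀ c ∈ C, ∀ v ∈ K, π ((sg c : MonoidAlgebra k G) • v) - (sg c : MonoidAlgebra k G) • π v ∈ X := by
    intro c hc v hv
    rw [← hsup] at hv
    obtain ⟨y, hy, y', hy', rfl⟩ := Submodule.mem_sup.1 hv
    rw [smul_add, map_add, map_add, smul_add, hπY _ (hY c (hCH hc) y hy), hπY y hy]
    have e : (sg c : MonoidAlgebra k G) • y + π ((sg c : MonoidAlgebra k G) • y') -
        ((sg c : MonoidAlgebra k G) • y + (sg c : MonoidAlgebra k G) • π y') =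
        π ((sg c : MonoidAlgebra k G) • y') - (sg c : MonoidAlgebra k G) • π y' := by abel
    rw [e]
    exact X.sub_mem (hπY1 _ (hY1 c hc y' hy')) (hX c (hCH hc) _ (hπY1 y' hy'))
  set e' : k := ((C.relIndex H : ℕ) : k)⁻¹ with he'
  set η : S →ₗ[k] S := e' • π with hη
  have hηY : ∀ v, η v ∈ Y := fun v => Y.smul_mem _ (hπm v)
  have hηe : ∀ c ∈ C, ∀ v ∈ K, η ((sg c : MonoidAlgebra k G) • v) - (sg c : MonoidAlgebra k G) • η v ∈ X := by
    intro c hc v hv
    have h1 : (sg c : MonoidAlgebra k G) • η v = e' • ((sg c : MonoidAlgebra k G) • π v) := by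
      rw [hη, LinearMap.smul_apply, smul_comm]
    rw [h1, hη, LinearMap.smul_apply, ← smul_sub]
    exact X.smul_mem _ (hπe c hc v hv)
  set π' : S →ₗ[k] S := cos C (fun g => if g ∈ H then cg g η else 0) with hπ'
  have hev : ∀ s, π' s = cos C (fun g => if g ∈ H then cg g η s else 0) := by
    intro s
    rw [hπ']
    unfold cos
    rw [LinearMap.sum_apply]
    refine Finset.sum_congr rfl fun q _ => ?_
    beta_reduce
    split_ifs <;> rfl
  have h1 : ∀ v, π' v ∈ Y := by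
    intro v
    rw [hev]
    unfold cos
    refine Y.sum_mem fun q _ => ?_
    beta_reduce
    split_ifs with hq
    · exact hY _ hq _ (hηY _)
    · exact Y.zero_mem
  have hcount : (Finset.univ.filter (fun q : G ⧸ C => q.out ∈ H)).card = C.relIndex H := by
    rw [Subgroup.relIndex, Subgroup.index, Nat.card_eq_fintype_card, ← Finset.card_univ]
    symm
    refine Finset.card_bij (fun (x : H ⧸ C.subgroupOf H) _ => ((x.out : H) : G ⧸ C)) ?_ ?_ ?_
    · intro x _
      rw [Finset.mem_filter]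
      refine ⟨Finset.mem_univ _, ?_⟩
      have h2 : (((x.out : H) : G)⁻¹ * (((x.out : H) : G) : G ⧸ C).out) ∈ C := by
        rw [← QuotientGroup.eq, QuotientGroup.out_eq']
      have h3 := H.mul_mem (x.out : H).2 (hCH h2)
      rwa [mul_inv_cancel_left] at h3
    · intro x _ y _ hxy
      rw [QuotientGroup.eq] at hxy
      have h2 : (QuotientGroup.mk (x.out : H) : H ⧸ C.subgroupOf H) = QuotientGroup.mk (y.out : H) := by
        rw [QuotientGroup.eq, Subgroup.mem_subgroupOf]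
        exact hxy
      rwa [QuotientGroup.out_eq', QuotientGroup.out_eq'] at h2
    · intro q hq
      have hqH := (Finset.mem_filter.1 hq).2
      refine ⟨(QuotientGroup.mk (⟨q.out, hqH⟩ : H) : H ⧸ C.subgroupOf H), Finset.mem_univ _, ?_⟩
      have h2 : ((QuotientGroup.mk (⟨q.out, hqH⟩ : H) : H ⧸ C.subgroupOf H).out)⁻¹ * (⟨q.out, hqH⟩ : H) ∈ C.subgroupOf H := by
        rw [← QuotientGroup.eq, QuotientGroup.out_eq']
      rw [Subgroup.mem_subgroupOf] at h2
      conv_rhs => rw [← QuotientGroup.out_eq' q]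
      rw [QuotientGroup.eq]
      exact h2
  have h2 : ∀ v ∈ Y, π' v = v := by
    intro v hv
    rw [hev]
    unfold cos
    have e1 : ∀ q : G ⧸ C, (if q.out ∈ H then cg q.out η v else 0) = if q.out ∈ H then e' • v else 0 := by
      intro q
      split_ifs with hq
      · rw [cg_apply, hη, LinearMap.smul_apply, hπY _ (hY _ (H.inv_mem hq) v hv), smul_comm, ← mul_smul, sg_mul_inv,
          one_smul]
      · rfl
    beta_reduce
    rw [Finset.sum_congr rfl fun q _ => e1 q, ← Finset.sum_filter, Finset.sum_const, hcount, ← Nat.cast_smul_eq_nsmul k,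
      ← mul_smul, he', mul_inv_cancel₀ he, one_smul]
  have h3 : ∀ v ∈ K, RInv C (fun g => X.mkQ (if g ∈ H then cg g η v else 0)) := by
    intro v hv d hd g
    show X.mkQ (if g * d ∈ H then cg (g * d) η v else 0) = X.mkQ (if g ∈ H then cg g η v else 0)
    have e1 : g * d ∈ H ↔ g ∈ H :=
      ⟨fun h => by simpa using H.mul_mem h (H.inv_mem (hCH hd)), fun h => H.mul_mem h (hCH hd)⟩
    by_cases hg : g ∈ H
    · rw [if_pos hg, if_pos (e1.2 hg), ← sub_eq_zero, ← map_sub, ← LinearMap.mem_ker, Submodule.ker_mkQ]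
      rw [cg_mul, cg_apply g, cg_apply g, ← smul_sub]
      refine hX _ hg _ ?_
      set w := (sg g⁻¹ : MonoidAlgebra k G) • v with hw
      have hwK : w ∈ K := hK _ (H.inv_mem hg) v hv
      rw [cg_apply]
      have h5 := hηe d⁻¹ (C.inv_mem hd) w hwK
      have h6 := hX d (hCH hd) _ h5
      rw [smul_sub, ← mul_smul (sg d) (sg d⁻¹) (η w), sg_mul_inv, one_smul] at h6
      exact h6
    · rw [if_neg hg, if_neg (fun h => hg (e1.1 h))]
  have h4 : ∀ h ∈ H, ∀ v ∈ K, π' ((sg h : MonoidAlgebra k G) • v) - (sg h : MonoidAlgebra k G) • π' v ∈ X := by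
    intro h hh v hv
    have e0 : ∀ g, (if g ∈ H then cg g η ((sg h : MonoidAlgebra k G) • v) else 0) =
        (sg h : MonoidAlgebra k G) • (if h⁻¹ * g ∈ H then cg (h⁻¹ * g) η v else 0) := by
      intro g
      have e1 : h⁻¹ * g ∈ H ↔ g ∈ H :=
        ⟨fun h' => by simpa using H.mul_mem hh h', fun h' => H.mul_mem (H.inv_mem hh) h'⟩
      by_cases hg : g ∈ H
      · rw [if_pos hg, if_pos (e1.2 hg), cg_apply, cg_apply, ← mul_smul (sg h), ← sg_mul, mul_inv_cancel_left,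
          ← mul_smul, ← sg_mul, mul_inv_rev, inv_inv]
      · rw [if_neg hg, if_neg (fun h => hg (e1.1 h)), smul_zero]
    have e2 : π' ((sg h : MonoidAlgebra k G) • v) = (sg h : MonoidAlgebra k G) •
        cos C (fun g => if h⁻¹ * g ∈ H then cg (h⁻¹ * g) η v else 0) := by
      rw [hev]
      unfold cos
      rw [Finset.smul_sum]
      exact Finset.sum_congr rfl fun q _ => e0 _
    rw [e2, hev, ← smul_sub]
    refine hX h hh _ ?_
    rw [← Submodule.ker_mkQ X, LinearMap.mem_ker, map_sub, sub_eq_zero]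
    have e3 := map_cos (D := C) X.mkQ.toAddMonoidHom (fun g => if g ∈ H then cg g η v else 0)
    have e4 := map_cos (D := C) X.mkQ.toAddMonoidHom (fun g => if h⁻¹ * g ∈ H then cg (h⁻¹ * g) η v else 0)
    simp only [LinearMap.toAddMonoidHom_coe] at e3 e4
    rw [e3, e4]
    exact (cos_left (h3 v hv) h⁻¹).symm
  refine ⟨K ⊓ X.comap π', ?_, ?_, inf_le_left, ?_, ?_⟩
  · intro h hh v hv
    refine ⟨hK h hh v hv.1, ?_⟩
    show π' _ ∈ X
    have e1 := X.add_mem (h4 h hh v hv.1) (hX h hh _ hv.2)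
    rwa [sub_add_cancel] at e1
  · intro x hx
    refine ⟨hYK (hXY hx), ?_⟩
    show π' x ∈ X
    rw [h2 x (hXY hx)]; exact hx
  · refine le_antisymm (sup_le hYK inf_le_left) ?_
    intro v hv
    have e1 : v = π' v + (v - π' v) := by abel
    rw [e1]
    refine Submodule.add_mem_sup (h1 v) ⟨K.sub_mem hv (hYK (h1 v)), ?_⟩
    show π' _ ∈ X
    rw [map_sub, h2 _ (h1 v), sub_self]
    exact X.zero_mem
  · ext v
    constructor
    · rintro ⟨hv, hv'⟩
      have : π' v ∈ X := hv'.2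
      rwa [h2 v hv] at this
    · intro hv
      refine ⟨hXY hv, hYK (hXY hv), ?_⟩
      show π' v ∈ X
      rw [h2 v (hXY hv)]; exact hv

end maschke

section jac

/-- central nilpotent elements lie in the radical -/
theorem central_nilp {R : Type*} [Ring R] {y : R} (hy : ∀ x, x * y = y * x) {n : ℕ} (hn : y ^ n = 0) :
    y ∈ Ring.jacobson R := by
  rw [Ring.jacobson_eq_sInf_isMaximal, Ideal.mem_sInf]
  intro m hm
  by_contra hym
  have h1 : m ⊔ Ideal.span {y} = ⊤ := by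
    have := (Ideal.isMaximal_def.1 hm).2 (m ⊔ Ideal.span {y}) (lt_of_le_of_ne le_sup_left (fun h => hym (by
      rw [h]; exact Submodule.mem_sup_right (Ideal.subset_span rfl))))
    exact this
  have h2 : (1 : R) ∈ m ⊔ Ideal.span {y} := by rw [h1]; trivial
  obtain ⟨a, ha, b, hb, e⟩ := Submodule.mem_sup.1 h2
  obtain ⟨c, rfl⟩ := Submodule.mem_span_singleton.1 hb
  have h3 : (c • y) ^ n = 0 := by
    rw [smul_eq_mul, (show Commute c y from hy c).mul_pow, hn, mul_zero]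
  have h4 : IsUnit a := by
    have : a = 1 - c • y := by rw [← e]; abel
    rw [this]
    exact (show IsNilpotent (c • y) from ⟨n, h3⟩).isUnit_one_sub
  exact hm.ne_top (Ideal.eq_top_of_isUnit_mem m ha h4)

end jac

section main

open Cfsg.Agent.H10.BlockLoc Cfsg.Agent.H10.BlockAlg Cfsg.Agent.H10.BlockIdem Cfsg.Agent.H3.CharIrr
  Cfsg.Agent.H25.Red Cfsg.Agent.H25.BPTr Cfsg.Agent.H25.BPMain Cfsg.Agent.H25.BPDef
  Cfsg.Agent.H25.Fus Cfsg.Agent.H25.Nilp Cfsg.Agent.H25.Cys Cfsg.Agent.H25.Cyt Cfsg.Agent.H25.Cyt2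

variable {M : Ideal AlgInt} {G : Type*} [Group G] [Fintype G] {p : ℕ} [hp : Fact p.Prime]
  [hMax : M.IsMaximal] [hch : CharP (KM M) p]

/-- the generator inside the block algebra of the group itself -/
theorem exists_z0 (hM : IsPModular p M) {B : Set (IrrCharacter G)} (hnil : IsNilpotentBlock p M B)
    {P : Subgroup G} (hD : IsDefectGroup p M B P) {a : ℕ} (ha : 1 ≤ a) {q : ℕ} [NeZero q] (hq : q = p ^ a)
    (φ : Multiplicative (ZMod q) ≃* P)
    (hu : ∀ c : G, c * wp φ ((p ^ (a - 1) : ℕ) : ZMod q) = wp φ ((p ^ (a - 1) : ℕ) : ZMod q) * c)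
    (huo : orderOf (wp φ ((p ^ (a - 1) : ℕ) : ZMod q)) = p) :
    ∃ z : MonoidAlgebra (KM M) G, (∀ x, x * z = z * x) ∧ z * epG M B = z ∧ z ^ q = 0 ∧
      ∀ r ∈ Ring.jacobson (MonoidAlgebra (KM M) G), ∃ v, r * epG M B = z * v := by
  obtain ⟨hB, hn⟩ := nilp_iff.1 hnil
  obtain ⟨E, hbp, htop⟩ := H25.STs.exists_max_of hM hB hD
  obtain ⟨χ₀, hχ, h0⟩ := H10.BlockHZ.exists_height_zero hB
  obtain ⟨χ, hχ0, hf, -⟩ := exists_fam2 hM hB hbp htop hn φ hχ h0
  have hk : MemLocalRing M ((χ 0 : G → ℂ) 1 / (Nat.card G : ℂ) * q) := by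
    rw [hχ0]
    exact kap_mem hM hB hD hχ h0 (P_card φ).symm
  have hr := (H25.STs.nil_rank hM hB hn).1
  refine ⟨zz M χ, fun x => zz_comm x, ?_, zz_nil hf hk hq, fun r hr' => rad_le hM hB hr hf hk ha hq hu huo hr'⟩
  rw [← cb_zero hf]
  exact zz_mul_f hf hk

open Classical in
/-- the generator for the stabilizer of a local block -/
theorem exists_z (hM : IsPModular p M) {C H : Subgroup G} {b : Set (IrrCharacter C)} (hnil : IsNilpotentBlock p M b)
    {P : Subgroup C} (hD : IsDefectGroup p M b P) {a : ℕ} (ha : 1 ≤ a) {q : ℕ} [NeZero q] (hq : q = p ^ a)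
    (φ : Multiplicative (ZMod q) ≃* P)
    (hu : ∀ c : C, c * wp φ ((p ^ (a - 1) : ℕ) : ZMod q) = wp φ ((p ^ (a - 1) : ℕ) : ZMod q) * c)
    (huo : orderOf (wp φ ((p ^ (a - 1) : ℕ) : ZMod q)) = p)
    (hCH : C ≤ H) (hHn : ∀ h ∈ H, KG.cs h C = C) (hfH : Fix H (ep M C b)) (hidx : ¬ p ∣ C.relIndex H) :
    ∃ z : MonoidAlgebra (KM M) G, NZ H z ∧ (∃ n : ℕ, z ^ n * ep M C b = 0) ∧
      ∀ J : Submodule (MonoidAlgebra (KM M) G) (MonoidAlgebra (KM M) G),
      SS H z (LinearMap.range (lm (k := KM M) (MonoidAlgebra (KM M) G ⧸ J) (ep M C b))) := by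
  haveI : Fintype C := Fintype.ofFinite _
  obtain ⟨z, hzc, hzf, hzq, hrad⟩ := exists_z0 hM hnil hD ha hq φ hu huo
  set f := ep M C b with hf
  have hfu : up (KM M) C (epG M b) = f := up_epG b
  set Z := up (KM M) C z with hZ
  have hZs : Supp C Z := up_supp z
  have hff : f * f = f := by
    have := (isBlk_ep (M := M) hnil.1).idem
    exact this
  have hZf : Z * f = Z := by rw [hZ, ← hfu, ← map_mul, hzf]
  have hZq : Z ^ q = 0 := by rw [hZ, ← map_pow, hzq, map_zero]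
  have hZc : ∀ x, Supp C x → x * Z = Z * x := by
    intro x hx
    obtain ⟨x', rfl⟩ := up_surj hx
    rw [hZ, ← map_mul, ← map_mul, hzc]
  -- conjugates of Z
  have hconj : ∀ h ∈ H, ∃ v, Supp C v ∧ KG.cnj h Z = Z * v := by
    intro h hh
    have h1 : Supp C (KG.cnj h Z) := by
      have := hZs.cnj h
      rwa [hHn h hh] at this
    obtain ⟨y, hy⟩ := up_surj h1
    have h2 : ∀ x, x * y = y * x := by
      intro x
      apply up_inj
      rw [map_mul, map_mul, hy]
      have h3 : Supp C (KG.cnj h⁻¹ (up (KM M) C x)) := by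
        have := (up_supp (k := KM M) x).cnj h⁻¹
        rwa [hHn _ (H.inv_mem hh)] at this
      have h4 := congrArg (KG.cnj h) (hZc _ h3)
      rwa [map_mul, map_mul, cnj_cnj_inv] at h4
    have h5 : y ^ q = 0 := by
      apply up_inj
      rw [map_pow, hy, ← map_pow, hZq, map_zero, map_zero]
    obtain ⟨v, hv⟩ := hrad y (central_nilp h2 h5)
    refine ⟨up (KM M) C v, up_supp v, ?_⟩
    have h6 := congrArg (up (KM M) C) hv
    rw [map_mul, map_mul, hy, hfu] at h6
    rw [← h6]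
    conv_lhs => rw [← hZf, map_mul, hfH h hh]
  have hZH : Supp H Z := hZs.mono hCH
  refine ⟨Z, Cyf.NZ.of_sg hZH ?_ ?_, ⟨q, by rw [hZq, zero_mul]⟩, ?_⟩
  · intro h hh
    obtain ⟨v, hv, e⟩ := hconj h hh
    refine ⟨v * sg h, (hv.mono hCH).mul (supp_sg hh), ?_⟩
    rw [sg_mul_eq, e, mul_assoc]
  · intro h hh
    obtain ⟨v, hv, e⟩ := hconj h⁻¹ (H.inv_mem hh)
    refine ⟨sg h * v, (supp_sg hh).mul (hv.mono hCH), ?_⟩
    have h1 := sg_mul_eq h (KG.cnj h⁻¹ Z)
    rw [cnj_cnj_inv] at h1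
    rw [← h1, e, mul_assoc, hZc v hv]
  · intro J
    refine ss_rel hCH ?_ ?_
    · intro h0
      apply hidx
      exact (CharP.cast_eq_zero_iff (KM M) p _).1 h0
    · intro X Y K hX hY hK hXY hYK hKV hzK
      have hXC : St C X := fun c hc => hX c (hCH hc)
      have hYC : St C Y := fun c hc => hY c (hCH hc)
      have hKC : St C K := fun c hc => hK c (hCH hc)
      refine exists_compl hXC hYC hKC hXY hYK ?_
      intro r hr v hv
      obtain ⟨w, hw⟩ := hrad r hr
      have e1 : f • v = v := by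
        obtain ⟨t, ht⟩ := hKV hv
        rw [lm_apply] at ht
        rw [← ht, ← mul_smul, hff]
      have h6 := congrArg (up (KM M) C) hw
      rw [map_mul, map_mul, hfu] at h6
      have e2 : up (KM M) C r • v = Z • (up (KM M) C w • v) := by
        conv_lhs => rw [← e1]
        rw [← mul_smul, h6, mul_smul]
      rw [e2]
      exact hzK ⟨_, hKC.smul (up_supp w) hv, rfl⟩

end main

end Cfsg.Agent.H25.Cyu
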