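import Mathlib
import Cfsg.Agent.H25_Cyu

/-!
H25_Cyv: block idempotents are relative traces from the defect group.
-/

set_option autoImplicit false
set_option linter.unusedSectionVars false

open scoped ComplexConjugate

namespace Cfsg.Agent.H25.Cyv

open Module Cfsg Cfsg.Agent.H25.KG Cfsg.Agent.H25.Up Cfsg.Agent.H25.Cya Cfsg.Agent.H25.Cyb Cfsg.Agent.H9.BrMod4
  Cfsg.Agent.H25.BPTr Cfsg.Agent.H25.BPMain Cfsg.Agent.H25.BPDef Cfsg.Agent.H25.STc

section count

variable {G : Type*} [Group G] [Fintype G]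

open Classical in
/-- counting cosets -/
theorem card_cosets {P H : Subgroup G} (hPH : P ≤ H) {r y h₀ : G} (hh₀ : h₀ ∈ H) (hy : y = h₀ * r * h₀⁻¹) :
    (Finset.univ.filter (fun q : G ⧸ P => q.out ∈ H ∧ ∃ x ∈ P, q.out⁻¹ * y * q.out = x * r * x⁻¹)).card =
      (P ⊓ Subgroup.centralizer ({r} : Set G)).relIndex (H ⊓ Subgroup.centralizer ({r} : Set G)) := by
  set L := H ⊓ Subgroup.centralizer ({r} : Set G) with hL
  have hLr : ∀ t ∈ L, t * r * t⁻¹ = r := by
    intro t ht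
    have := Subgroup.mem_centralizer_singleton_iff.1 ht.2
    rw [this, mul_inv_cancel_right]
  rw [Subgroup.relIndex, Subgroup.index, Nat.card_eq_fintype_card, ← Finset.card_univ]
  symm
  refine Finset.card_bij (fun (x : L ⧸ (P ⊓ Subgroup.centralizer ({r} : Set G)).subgroupOf L) _ =>
    ((h₀ * (x.out : L) : G) : G ⧸ P)) ?_ ?_ ?_
  · intro x _
    rw [Finset.mem_filter]
    refine ⟨Finset.mem_univ _, ?_⟩
    set t : G := ((x.out : L) : G) with ht
    have htL : t ∈ L := (x.out : L).2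
    have h2 : (h₀ * t)⁻¹ * (((h₀ * t : G) : G ⧸ P).out) ∈ P := by
      rw [← QuotientGroup.eq, QuotientGroup.out_eq']
    set d := (h₀ * t)⁻¹ * (((h₀ * t : G) : G ⧸ P).out) with hd
    have h3 : (((h₀ * t : G) : G ⧸ P).out) = h₀ * t * d := by rw [hd, mul_inv_cancel_left]
    rw [h3]
    refine ⟨H.mul_mem (H.mul_mem hh₀ htL.1) (hPH h2), d⁻¹, P.inv_mem h2, ?_⟩
    have h4 := hLr t⁻¹ (L.inv_mem htL)
    rw [inv_inv] at h4
    rw [hy]
    calc (h₀ * t * d)⁻¹ * (h₀ * r * h₀⁻¹) * (h₀ * t * d) = d⁻¹ * (t⁻¹ * r * t) * d := by group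
      _ = d⁻¹ * r * d⁻¹⁻¹ := by rw [h4, inv_inv]
  · intro x _ x' _ hxx
    rw [QuotientGroup.eq] at hxx
    have h1 : (h₀ * ((x.out : L) : G))⁻¹ * (h₀ * ((x'.out : L) : G)) = ((x.out : L) : G)⁻¹ * ((x'.out : L) : G) := by group
    rw [h1] at hxx
    have h2 : (QuotientGroup.mk (x.out : L) : L ⧸ (P ⊓ Subgroup.centralizer ({r} : Set G)).subgroupOf L) =
        QuotientGroup.mk (x'.out : L) := by
      rw [QuotientGroup.eq, Subgroup.mem_subgroupOf]
      exact ⟨hxx, (L.mul_mem (L.inv_mem (x.out : L).2) (x'.out : L).2).2⟩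
    rwa [QuotientGroup.out_eq', QuotientGroup.out_eq'] at h2
  · intro q hq
    obtain ⟨hqH, x, hx, e⟩ := (Finset.mem_filter.1 hq).2
    set h := q.out with hh
    have ht : h₀⁻¹ * h * x ∈ L := by
      refine ⟨H.mul_mem (H.mul_mem (H.inv_mem hh₀) hqH) (hPH hx), ?_⟩
      show _ ∈ Subgroup.centralizer ({r} : Set G)
      rw [Subgroup.mem_centralizer_singleton_iff]
      have e2 : h⁻¹ * (h₀ * r * h₀⁻¹) * h = x * r * x⁻¹ := by rw [← hy]; exact e
      have e3 : r * (h₀⁻¹ * h * x) = h₀⁻¹ * h * (h⁻¹ * (h₀ * r * h₀⁻¹) * h) * x := by group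
      rw [e3, e2]; group
    refine ⟨(QuotientGroup.mk (⟨h₀⁻¹ * h * x, ht⟩ : L) : L ⧸ (P ⊓ Subgroup.centralizer ({r} : Set G)).subgroupOf L),
      Finset.mem_univ _, ?_⟩
    have h2 : ((QuotientGroup.mk (⟨h₀⁻¹ * h * x, ht⟩ : L) : L ⧸ (P ⊓ Subgroup.centralizer ({r} : Set G)).subgroupOf L).out)⁻¹ *
        (⟨h₀⁻¹ * h * x, ht⟩ : L) ∈ (P ⊓ Subgroup.centralizer ({r} : Set G)).subgroupOf L := by
      rw [← QuotientGroup.eq, QuotientGroup.out_eq']
    rw [Subgroup.mem_subgroupOf] at h2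
    set s : L := (QuotientGroup.mk (⟨h₀⁻¹ * h * x, ht⟩ : L) : L ⧸ (P ⊓ Subgroup.centralizer ({r} : Set G)).subgroupOf L).out
    have h3 : ((s : G))⁻¹ * (h₀⁻¹ * h * x) ∈ P := h2.1
    have h4 : q = ((h : G) : G ⧸ P) := by rw [hh, QuotientGroup.out_eq']
    rw [h4, QuotientGroup.eq]
    have h5 : (h₀ * (s : G))⁻¹ * h = ((s : G))⁻¹ * (h₀⁻¹ * h * x) * x⁻¹ := by group
    rw [h5]
    exact P.mul_mem h3 (P.inv_mem hx)

end count

theorem rel_card {G : Type*} [Group G] [Finite G] {R L : Subgroup G} (h : R ≤ L) :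
    Nat.card R * R.relIndex L = Nat.card L := by
  rw [Subgroup.relIndex, ← Subgroup.card_mul_index (R.subgroupOf L),
    Nat.card_congr (Subgroup.subgroupOfEquivOfLe h).toEquiv]

section main

variable {k : Type*} [Field k] {G : Type*} [Group G] [Fintype G] {p : ℕ} [hp : Fact p.Prime] [hch : CharP k p]

/-- good representatives -/
theorem exists_good {P H : Subgroup G} (hPH : P ≤ H) {f : MonoidAlgebra k G}
    (hmax : ∀ R : Subgroup G, R ≤ H → IsPGroup p R → tr (Ce R) f ≠ 0 → ∃ x ∈ H, R ≤ cs x P) {y : G}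
    (hy : f.coeff y ≠ 0) : ∃ h ∈ H, ¬ p ∣ (P ⊓ Subgroup.centralizer ({h⁻¹ * y * h} : Set G)).relIndex
      (H ⊓ Subgroup.centralizer ({h⁻¹ * y * h} : Set G)) := by
  set L := H ⊓ Subgroup.centralizer ({y} : Set G) with hL
  obtain ⟨R0⟩ : Nonempty (Sylow p L) := inferInstance
  set R := (R0 : Subgroup L).map L.subtype with hR
  have hRL : R ≤ L := Subgroup.map_subtype_le _
  have hRp : IsPGroup p R := R0.isPGroup'.map _
  have hyR : y ∈ Ce R := by
    rw [Subgroup.mem_centralizer_iff]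
    intro s hs
    exact Subgroup.mem_centralizer_singleton_iff.1 (hRL hs).2
  obtain ⟨x, hx, hRx⟩ := hmax R (hRL.trans inf_le_left) hRp (tr_ne_of_coeff hyR hy)
  refine ⟨x, hx, ?_⟩
  have hRi : ¬ p ∣ R.relIndex L := by
    have h1 : R.subgroupOf L = (R0 : Subgroup L) := by
      rw [hR, Subgroup.subgroupOf, Subgroup.comap_map_eq_self_of_injective L.subtype_injective]
    rw [Subgroup.relIndex, h1]
    exact R0.not_dvd_index
  -- conjugate back
  have hL' : H ⊓ Subgroup.centralizer ({x⁻¹ * y * x} : Set G) = cs x⁻¹ L := by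
    ext t
    rw [mem_cs, inv_inv, hL, Subgroup.mem_inf, Subgroup.mem_inf, Subgroup.mem_centralizer_singleton_iff,
      Subgroup.mem_centralizer_singleton_iff]
    constructor
    · rintro ⟨h1, h2⟩
      refine ⟨H.mul_mem (H.mul_mem hx h1) (H.inv_mem hx), ?_⟩
      have e1 : x * t * x⁻¹ * y = x * (t * (x⁻¹ * y * x)) * x⁻¹ := by group
      have e2 : y * (x * t * x⁻¹) = x * ((x⁻¹ * y * x) * t) * x⁻¹ := by group
      rw [e1, e2, h2]
    · rintro ⟨h1, h2⟩
      constructor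
      · have := H.mul_mem (H.mul_mem (H.inv_mem hx) h1) hx
        have e : x⁻¹ * (x * t * x⁻¹) * x = t := by group
        rwa [e] at this
      · have e1 : t * (x⁻¹ * y * x) = x⁻¹ * (x * t * x⁻¹ * y) * x := by group
        have e2 : (x⁻¹ * y * x) * t = x⁻¹ * (y * (x * t * x⁻¹)) * x := by group
        rw [e1, e2, h2]
  have hR' : (cs x⁻¹ R).relIndex (cs x⁻¹ L) = R.relIndex L := by
    have hR1 : cs x⁻¹ R ≤ cs x⁻¹ L := cs_mono _ hRL
    have e1 := rel_card hR1
    have e2 := rel_card hRL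
    rw [card_cs, card_cs] at e1
    rw [← e2] at e1
    exact Nat.eq_of_mul_eq_mul_left Nat.card_pos e1
  have hRP : cs x⁻¹ R ≤ P ⊓ Subgroup.centralizer ({x⁻¹ * y * x} : Set G) := by
    refine le_inf ?_ ?_
    · have := cs_mono x⁻¹ hRx
      rwa [← cs_mul, inv_mul_cancel, cs_one] at this
    · have h1 := cs_mono x⁻¹ hRL
      rw [← hL'] at h1
      exact h1.trans inf_le_right
  intro hdvd
  apply hRi
  rw [← hR', ← hL']
  have h2 : P ⊓ Subgroup.centralizer ({x⁻¹ * y * x} : Set G) ≤ H ⊓ Subgroup.centralizer ({x⁻¹ * y * x} : Set G) :=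
    inf_le_inf_right _ hPH
  rw [← Subgroup.relIndex_mul_relIndex _ _ _ hRP h2]
  exact dvd_mul_of_dvd_right hdvd _

set_option maxHeartbeats 800000 in
open Classical in
/-- `H`-stable elements are relative traces from a group containing all relevant Brauer images -/
theorem exists_a {P H : Subgroup G} (hPH : P ≤ H) {f : MonoidAlgebra k G} (hfH : Fix H f)
    (hmax : ∀ R : Subgroup G, R ≤ H → IsPGroup p R → tr (Ce R) f ≠ 0 → ∃ x ∈ H, R ≤ cs x P) :
    ∃ a : MonoidAlgebra k G, Fix P a ∧ f = cos P (fun g => if g ∈ H then KG.cnj g a else 0) := by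
  -- the equivalence relation
  let s : Setoid G :=
    { r := fun y y' => ∃ h ∈ H, y' = h * y * h⁻¹
      iseqv := ⟨fun y => ⟨1, H.one_mem, by group⟩, fun {y y'} ⟨h, hh, e⟩ => ⟨h⁻¹, H.inv_mem hh, by rw [e]; group⟩,
        fun {y y' y''} ⟨h, hh, e⟩ ⟨h', hh', e'⟩ => ⟨h' * h, H.mul_mem hh' hh, by rw [e', e]; group⟩⟩ }
  let n : G → ℕ := fun r => (P ⊓ Subgroup.centralizer ({r} : Set G)).relIndex (H ⊓ Subgroup.centralizer ({r} : Set G))
  have hex : ∀ κ : Quotient s, ∃ r : G, Quotient.mk s r = κ ∧ (f.coeff r ≠ 0 → ¬ p ∣ n r) := by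
    intro κ
    obtain ⟨y, rfl⟩ := Quotient.exists_rep κ
    by_cases hy : f.coeff y = 0
    · exact ⟨y, rfl, fun h => absurd hy h⟩
    · obtain ⟨h, hh, hn⟩ := exists_good (p := p) hPH hmax hy
      refine ⟨h⁻¹ * y * h, ?_, fun _ => hn⟩
      apply Quotient.sound
      exact ⟨h, hh, by group⟩
  choose R hR1 hR2 using hex
  have hmk : ∀ h ∈ H, ∀ y, Quotient.mk s (h * y * h⁻¹) = Quotient.mk s y := by
    intro h hh y
    apply Quotient.sound
    exact ⟨h⁻¹, H.inv_mem hh, by group⟩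
  let c : G → k := fun y => if ∃ x ∈ P, y = x * R (Quotient.mk s y) * x⁻¹ then ((n (R (Quotient.mk s y)) : ℕ) : k)⁻¹ else 0
  have hcP : ∀ x ∈ P, ∀ y, c (x * y * x⁻¹) = c y := by
    intro x hx y
    have h1 := hmk x (hPH hx) y
    show (if ∃ x' ∈ P, x * y * x⁻¹ = x' * R (Quotient.mk s (x * y * x⁻¹)) * x'⁻¹ then _ else _) = _
    rw [h1]
    have h2 : (∃ x' ∈ P, x * y * x⁻¹ = x' * R (Quotient.mk s y) * x'⁻¹) ↔ ∃ x' ∈ P, y = x' * R (Quotient.mk s y) * x'⁻¹ := by
      constructor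
      · rintro ⟨x', hx', e⟩
        refine ⟨x⁻¹ * x', P.mul_mem (P.inv_mem hx) hx', ?_⟩
        calc y = x⁻¹ * (x * y * x⁻¹) * x := by group
          _ = _ := by rw [e]; group
      · rintro ⟨x', hx', e⟩
        refine ⟨x * x', P.mul_mem hx hx', ?_⟩
        conv_lhs => rw [e]
        group
    simp only [h2]
    rfl
  refine ⟨KG.ofF fun y => f.coeff y * c y, ?_, ?_⟩
  · rw [fix_iff]
    intro x hx y
    rw [coeff_ofF, coeff_ofF, hcP x hx, hfH.c (hPH hx)]
  · apply KG.ext_c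
    intro y
    have h0 : (cos P (fun g => if g ∈ H then KG.cnj g (KG.ofF fun y => f.coeff y * c y) else 0)).coeff y =
        ∑ q : G ⧸ P, if q.out ∈ H then f.coeff y * c (q.out⁻¹ * y * q.out) else 0 := by
      unfold cos
      rw [MonoidAlgebra.coeff_sum, Finsupp.finset_sum_apply]
      refine Finset.sum_congr rfl fun q _ => ?_
      beta_reduce
      split_ifs with hq
      · rw [cnj_c, coeff_ofF]
        have h1 := hfH.c (H.inv_mem hq) y
        rw [inv_inv] at h1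
        rw [h1]
      · rfl
    rw [h0]
    by_cases hy : f.coeff y = 0
    · rw [hy]
      symm
      refine Finset.sum_eq_zero fun q _ => ?_
      split_ifs <;> simp
    · set r := R (Quotient.mk s y) with hr
      have hry : Quotient.mk s r = Quotient.mk s y := hR1 _
      obtain ⟨h₀, hh₀, e₀⟩ := Quotient.exact hry
      have hfr : f.coeff r ≠ 0 := by
        intro h
        apply hy
        rw [e₀, hfH.c hh₀, h]
      have hnr : ((n r : ℕ) : k) ≠ 0 := by
        intro h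
        exact hR2 (Quotient.mk s y) hfr ((CharP.cast_eq_zero_iff k p _).1 h)
      have h1 : ∀ q : G ⧸ P, (if q.out ∈ H then f.coeff y * c (q.out⁻¹ * y * q.out) else 0) =
          if (q.out ∈ H ∧ ∃ x ∈ P, q.out⁻¹ * y * q.out = x * r * x⁻¹) then f.coeff y * ((n r : ℕ) : k)⁻¹ else 0 := by
        intro q
        by_cases hq : q.out ∈ H
        · have h2 : Quotient.mk s (q.out⁻¹ * y * q.out) = Quotient.mk s y := by
            have := hmk _ (H.inv_mem hq) y
            rwa [inv_inv] at this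
          rw [if_pos hq]
          show f.coeff y * (if ∃ x ∈ P, q.out⁻¹ * y * q.out = x * R (Quotient.mk s (q.out⁻¹ * y * q.out)) * x⁻¹ then
            ((n (R (Quotient.mk s (q.out⁻¹ * y * q.out))) : ℕ) : k)⁻¹ else 0) = _
          rw [h2, ← hr]
          by_cases h3 : ∃ x ∈ P, q.out⁻¹ * y * q.out = x * r * x⁻¹
          · rw [if_pos h3, if_pos ⟨hq, h3⟩]
          · rw [if_neg h3, if_neg (fun h => h3 h.2), mul_zero]
        · rw [if_neg hq, if_neg (fun h => hq h.1)]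
      rw [Finset.sum_congr rfl fun q _ => h1 q, ← Finset.sum_filter, Finset.sum_const, card_cosets hPH hh₀ e₀,
        nsmul_eq_mul, mul_left_comm]
      rw [show (((P ⊓ Subgroup.centralizer ({r} : Set G)).relIndex (H ⊓ Subgroup.centralizer ({r} : Set G)) : ℕ) : k) = ((n r : ℕ) : k) from rfl,
        mul_inv_cancel₀ hnr, mul_one]

end main

end Cfsg.Agent.H25.Cyv
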