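import Mathlib
import Cfsg.Agent.H25_Cyv

/-!
H25_Cyw: the lower bound for the p-regular rank of a block with cyclic defect group.
-/

set_option autoImplicit false
set_option linter.unusedSectionVars false

open scoped ComplexConjugate

namespace Cfsg.Agent.H25.Cyw

open Module Cfsg Cfsg.Agent.H10.BlockLoc Cfsg.Agent.H10.BlockAlg Cfsg.Agent.H10.BlockIdem Cfsg.Agent.H3.CharIrr
  Cfsg.Agent.H25.Red Cfsg.Agent.H25.KG Cfsg.Agent.H25.Up Cfsg.Agent.H25.BPTr Cfsg.Agent.H25.BPMain Cfsg.Agent.H25.BPDef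
  Cfsg.Agent.H25.Fus Cfsg.Agent.H25.Nilp Cfsg.Agent.H25.NilpAb Cfsg.Agent.H25.FMT
  Cfsg.Agent.H25.Cya Cfsg.Agent.H25.Cyb Cfsg.Agent.H25.Cyc Cfsg.Agent.H25.Cyd Cfsg.Agent.H25.Cye
  Cfsg.Agent.H25.Cyf Cfsg.Agent.H25.Cyk Cfsg.Agent.H25.Cyg Cfsg.Agent.H9.BrMod4
  Cfsg.Agent.H25.Cys Cfsg.Agent.H25.Cyt Cfsg.Agent.H25.Cyt2 Cfsg.Agent.H25.Cyu Cfsg.Agent.H25.Cyv

variable {M : Ideal AlgInt} {G : Type*} [Group G] [Fintype G] {p : ℕ} [hp : Fact p.Prime]
  [hMax : M.IsMaximal] [hch : CharP (KM M) p]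

omit [Fintype G] [hMax : M.IsMaximal] [hch : CharP (KM M) p] in
/-- elements of order `p` -/
theorem wp_order {P : Subgroup G} {q : ℕ} [NeZero q] {a : ℕ} (ha : 1 ≤ a) (hq : q = p ^ a)
    (φ : Multiplicative (ZMod q) ≃* P) : orderOf (wp φ ((p ^ (a - 1) : ℕ) : ZMod q)) = p := by
  apply orderOf_eq_prime
  · rw [wp_nat, ← pow_mul, ← pow_succ, Nat.sub_add_cancel ha, ← wp_nat, ← hq, ZMod.natCast_self, wp_zero]
  · intro h
    rw [← wp_zero φ] at h
    have h1 := wp_inj φ h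
    rw [ZMod.natCast_eq_zero_iff, hq] at h1
    have h2 := Nat.le_of_dvd (pow_pos hp.out.pos _) h1
    have h3 : p ^ (a - 1) < p ^ a := Nat.pow_lt_pow_right hp.out.one_lt (by omega)
    omega

omit [hMax : M.IsMaximal] [hch : CharP (KM M) p] in
/-- `p`-subgroups of `H` lie in a normal subgroup of index prime to `p` -/
theorem pg_le {C H : Subgroup G} (hCH : C ≤ H) (hHn : ∀ h ∈ H, ∀ c ∈ C, h * c * h⁻¹ ∈ C) (hidx : ¬ p ∣ C.relIndex H)
    {R : Subgroup G} (hR : R ≤ H) (hRp : IsPGroup p R) : R ≤ C := by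
  intro x hx
  haveI : (C.subgroupOf H).Normal := ⟨fun c hc h => hHn h h.2 c hc⟩
  obtain ⟨n, hn⟩ := hRp ⟨x, hx⟩
  have hn' : x ^ p ^ n = 1 := congrArg Subtype.val hn
  have h1 : (QuotientGroup.mk (⟨x, hR hx⟩ : H) : H ⧸ C.subgroupOf H) ^ p ^ n = 1 := by
    rw [← QuotientGroup.mk_pow]
    have : (⟨x, hR hx⟩ : H) ^ p ^ n = 1 := Subtype.ext hn'
    rw [this]; rfl
  have h2 : (QuotientGroup.mk (⟨x, hR hx⟩ : H) : H ⧸ C.subgroupOf H) ^ (C.relIndex H) = 1 := pow_card_eq_one'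
  have h3 : Nat.Coprime (p ^ n) (C.relIndex H) := Nat.Coprime.pow_left _ ((Nat.Prime.coprime_iff_not_dvd hp.out).2 hidx)
  have h4 : orderOf (QuotientGroup.mk (⟨x, hR hx⟩ : H) : H ⧸ C.subgroupOf H) = 1 :=
    Nat.eq_one_of_dvd_coprimes h3 (orderOf_dvd_of_pow_eq_one h1) (orderOf_dvd_of_pow_eq_one h2)
  rw [orderOf_eq_one_iff, QuotientGroup.eq_one_iff, Subgroup.mem_subgroupOf] at h4
  exact h4

set_option maxHeartbeats 1600000 in
open Classical in
/-- the lower bound -/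
theorem lower' (hM : IsPModular p M) {B : Set (IrrCharacter G)} (hB : IsPBlock M B) {P : Subgroup G}
    {E : MonoidAlgebra (KM M) G} (hP : BP p (epG M B) P E) (htop : KG.Top p P E) (hc : IsCyclic P) (hP1 : P ≠ ⊥) :
    (Ce P).relIndex (Nf P E) ≤ blockRank p B := by
  have hab := cyc_comm hc
  -- an element of order p
  obtain ⟨u, huP, huo⟩ : ∃ u ∈ P, orderOf u = p := by
    have h1 : p ∣ Nat.card P := by
      obtain ⟨n, hn⟩ := IsPGroup.iff_card.1 hP.pg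
      rw [hn]
      refine dvd_pow_self p ?_
      rintro rfl
      rw [pow_zero, Subgroup.card_eq_one] at hn
      exact hP1 hn
    obtain ⟨x, hx⟩ := exists_prime_orderOf_dvd_card' p h1
    exact ⟨x, x.2, by rwa [Subgroup.orderOf_coe]⟩
  set Q := Subgroup.zpowers u with hQ
  have hQP : Q ≤ P := Subgroup.zpowers_le.2 huP
  have hQ1 : Q ≠ ⊥ := by
    rw [hQ, Ne, Subgroup.zpowers_eq_bot]
    rintro rfl
    rw [orderOf_one] at huo
    exact hp.out.one_lt.ne huo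
  obtain ⟨f, -, hle⟩ := le_exists hP.pg hP.be hQP
  obtain ⟨b, hb, hbf, hnil, hbr⟩ := rank_cent hM hP htop hc hle hQ1
  have hf := (hle.pair hP.pg hP.be).2
  have hPC : P ≤ Ce Q := le_Ce_ab hab hQP
  have hCH : Ce Q ≤ Nf Q f := Ce_le_Nf hf
  have hdgh := dgh_ab hM hP htop hab hle
  have hidx : ¬ p ∣ (Ce Q).relIndex (Nf Q f) := by
    rw [relIdx hM hP htop hc hle hQ1]
    exact idx_ab hM hP htop hab
  have hHn : ∀ h ∈ Nf Q f, ∀ c ∈ Ce Q, h * c * h⁻¹ ∈ Ce Q := by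
    intro h hh c hc'
    have h1 := norm_le_norm_Ce Q hh.1
    exact (Subgroup.mem_normalizer_iff.1 h1 c).1 hc'
  have hHn' : ∀ h ∈ Nf Q f, KG.cs h (Ce Q) = Ce Q := by
    intro h hh
    exact mem_normalizer_iff_cs.1 (norm_le_norm_Ce Q hh.1)
  -- the relative trace
  obtain ⟨a, haP, hfa⟩ := Cyv.exists_a (p := p) (k := KM M) (hPC.trans hCH) (fix_Nf (f := f) (Q := Q)) (by
    intro R hR hRp hne
    have h1 := pg_le hCH hHn hidx hR hRp
    obtain ⟨x, hx, h2⟩ := hdgh.max R h1 hRp hne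
    exact ⟨x, hCH hx, h2⟩)
  -- the block of the centralizer
  haveI : Fintype (Ce Q) := Fintype.ofFinite _
  have hD : IsDefectGroup p M b (P.subgroupOf (Ce Q)) := by
    rw [defectH_iff hM hb, hbf, of_map hPC]
    exact hdgh
  obtain ⟨n, hn⟩ := IsPGroup.iff_card.1 hP.pg
  have hn1 : 1 ≤ n := by
    rcases Nat.eq_zero_or_pos n with h | h
    · rw [h, pow_zero, Subgroup.card_eq_one] at hn
      exact absurd hn hP1
    · exact h
  have hcard : Nat.card (P.subgroupOf (Ce Q)) = p ^ n := by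
    rw [Nat.card_congr (Subgroup.subgroupOfEquivOfLe hPC).toEquiv, hn]
  have hcyc : IsCyclic (P.subgroupOf (Ce Q)) := by
    haveI := hc
    exact isCyclic_of_injective (Subgroup.subgroupOfEquivOfLe hPC).toMonoidHom (Subgroup.subgroupOfEquivOfLe hPC).injective
  haveI : NeZero (p ^ n) := ⟨(pow_pos hp.out.pos n).ne'⟩
  obtain ⟨φ⟩ : Nonempty (Multiplicative (ZMod (p ^ n)) ≃* P.subgroupOf (Ce Q)) := by
    rw [← hcard]
    exact ⟨zmodCyclicMulEquiv hcyc⟩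
  have huo' := wp_order (p := p) hn1 rfl φ
  have hucen : ∀ c : Ce Q, c * wp φ ((p ^ (n - 1) : ℕ) : ZMod (p ^ n)) = wp φ ((p ^ (n - 1) : ℕ) : ZMod (p ^ n)) * c := by
    intro c
    set w := wp φ ((p ^ (n - 1) : ℕ) : ZMod (p ^ n)) with hw
    have h1 : (w : G) ∈ P := Subgroup.mem_subgroupOf.1 (wp_mem φ _)
    have h2 : orderOf (w : G) = p := by rw [Subgroup.orderOf_coe]; exact huo'
    have h3 : (w : G) ∈ Q := zp_mem_of_order hc huP h1 huo h2
    apply Subtype.ext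
    exact (Subgroup.mem_centralizer_iff.1 c.2 _ h3).symm
  obtain ⟨z, hz1, hz2, hz3⟩ := exists_z hM (H := Nf Q f) hnil hD hn1 rfl φ hucen huo' hCH hHn' (by
    rw [hbf]; exact fix_Nf) hidx
  rw [hbf] at hz2 hz3
  exact Cyg.lower hM hB hP htop hc huP huo hle haP hfa hz1 hz2 hz3

end Cfsg.Agent.H25.Cyw
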