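import Mathlib
import Cfsg.Agent.H25_Cyw
import Cfsg.Agent.H25_Cyo

/-!
H25_Cyx: the characters of a nilpotent block with cyclic defect group, sections and support.
-/

set_option autoImplicit false
set_option linter.unusedSectionVars false

open scoped ComplexConjugate

namespace Cfsg.Agent.H25.Cyx

open Cfsg Cfsg.Agent.H3 Cfsg.Agent.H3.CharIrr Cfsg.Agent.H3.CharComplete Cfsg.Agent.H3.CharBasic
  Cfsg.Agent.H10.BlockLoc Cfsg.Agent.H10.BlockAlg Cfsg.Agent.H10.BlockIdem Cfsg.Agent.H10.Char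
  Cfsg.Agent.H10.BlockSMT Cfsg.Agent.H10.BlockSMT2 Cfsg.Agent.H10.BlockTrace Cfsg.Agent.H10.BlockDefect Cfsg.Agent.H10.BlockMain
  Cfsg.Agent.H10.PPart Cfsg.Agent.H25.IndCong Cfsg.Agent.H25.Red Cfsg.Agent.H25.KG
  Cfsg.Agent.H25.BPTr Cfsg.Agent.H25.BPMain Cfsg.Agent.H25.BPDef Cfsg.Agent.H25.Fus Cfsg.Agent.H25.Nilp
  Cfsg.Agent.H25.NilpAb Cfsg.Agent.H25.Sub Cfsg.Agent.H25.Sub2 Cfsg.Agent.H25.Cyk
  Cfsg.Agent.H25.STa Cfsg.Agent.H25.STb Cfsg.Agent.H25.STc Cfsg.Agent.H25.STd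
  Cfsg.Agent.H25.STe Cfsg.Agent.H25.STf Cfsg.Agent.H25.STg Cfsg.Agent.H25.STh Cfsg.Agent.H25.STi
  Cfsg.Agent.H25.STj Cfsg.Agent.H25.STk Cfsg.Agent.H25.STl Cfsg.Agent.H25.STm Cfsg.Agent.H25.STn
  Cfsg.Agent.H25.STo Cfsg.Agent.H25.STp Cfsg.Agent.H25.STq Cfsg.Agent.H25.STr Cfsg.Agent.H25.Cys
  Cfsg.Agent.H25.Cyn Cfsg.Agent.H25.Cyi

section lev

variable {p : ℕ} {M : Ideal AlgInt} {G : Type*} [Group G] [Fintype G] [hMax : M.IsMaximal]
  [hp : Fact p.Prime] [hch : CharP (KM M) p] {P : Subgroup G} {E : MonoidAlgebra (KM M) G}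
  {B : Set (IrrCharacter G)}

/-- the Fourier transforms of the family are supported on sections -/
theorem supp_F (hM : IsPModular p M) (hP : BP p (epG M B) P E) (htop : KG.Top p P E)
    (hn : Nilp p (epG M B)) {q : ℕ} [NeZero q] (φ : Multiplicative (ZMod q) ≃* P) {χ₀ : IrrCharacter G}
    {χ : ZMod q → IrrCharacter G}
    (hχst : ∀ a, ∀ [Fintype P], st p P E (xf P (lam φ a : P → ℂ)) (χ₀ : G → ℂ) = (χ a : G → ℂ))
    (i : ZMod q) (g : G) (hne : ∑ a, Cyh.ee (-(a * i)) * (χ a : G → ℂ) g ≠ 0) :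
    ∃ c y : G, ¬ p ∣ orderOf y ∧ c * wp φ i * c⁻¹ * y = y * (c * wp φ i * c⁻¹) ∧ g = c * wp φ i * c⁻¹ * y := by
  classical
  letI : Fintype P := Fintype.ofFinite _
  have hab : ∀ x ∈ P, ∀ y ∈ P, x * y = y * x := fun x hx y hy =>
    congrArg Subtype.val (P_comm φ ⟨x, hx⟩ ⟨y, hy⟩)
  have hst : ∀ η : G → ℂ, Stab p P E η := stab_ab hM hP htop hn hab
  have hcl := IsIrr.isClass χ₀.2
  set δ : G → ℂ := fun x => if x = wp φ i then (q : ℂ) else 0 with hδ
  have h1 : (fun x => ∑ a : ZMod q, Cyh.ee (-(a * i)) * xf P (lam φ a : P → ℂ) x) = δ := by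
    funext x
    by_cases hx : x ∈ P
    · obtain ⟨j, rfl⟩ := wp_surj φ hx
      have h2 : ∀ a : ZMod q, Cyh.ee (-(a * i)) * xf P (lam φ a : P → ℂ) (wp φ j) = Cyh.ee ((j - i) * a) := by
        intro a
        rw [xf_lam, ← Cyh.ee_add]
        congr 1; ring
      rw [Finset.sum_congr rfl fun a _ => h2 a, Cyh.sum_ee]
      show _ = (if wp φ j = wp φ i then (q : ℂ) else 0)
      by_cases hij : j - i = 0
      · rw [if_pos hij, if_pos (by rw [sub_eq_zero.1 hij])]
      · rw [if_neg hij, if_neg (fun h => hij (by rw [wp_inj φ h]; ring))]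
    · have h2 : ∀ a : ZMod q, xf P (lam φ a : P → ℂ) x = 0 := fun a => by unfold xf; rw [dif_neg hx]
      show _ = (if x = wp φ i then (q : ℂ) else 0)
      rw [if_neg (fun h => hx (by rw [h]; exact wp_mem φ _))]
      exact Finset.sum_eq_zero fun a _ => by rw [h2, mul_zero]
  have h3 := st_sum (P := P) (E := E) hM Finset.univ (fun a : ZMod q => Cyh.ee (-(a * i))) (fun a => xf P (lam φ a : P → ℂ))
    (fun a _ => hst _) hcl
  rw [h1] at h3
  have h5 := congrFun h3 g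
  rw [Finset.sum_apply] at h5
  simp only [Pi.smul_apply, smul_eq_mul] at h5
  have h6 : st p P E δ (χ₀ : G → ℂ) g ≠ 0 := by
    rw [h5]
    intro h
    apply hne
    rw [← h]
    exact Finset.sum_congr rfl fun a _ => by rw [hχst]
  obtain ⟨u, y, huy, hcm, hu, hy⟩ := exists_ppart (p := p) g
  haveI : Fintype (Subgroup.centralizer ({u} : Set G)) := Fintype.ofFinite _
  have hyC : y ∈ Subgroup.centralizer ({u} : Set G) := by
    rw [mem_Ce1]; exact hcm.eq.symm
  have h7 := st_eq (p := p) (P := P) (E := E) δ hcl hu ⟨y, hyC⟩ (by rw [Subgroup.orderOf_mk]; exact hy)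
  have h8 : u * ((⟨y, hyC⟩ : Subgroup.centralizer ({u} : Set G)) : G) = g := huy
  rw [h8] at h7
  rw [h7] at h6
  obtain ⟨b, -, hb⟩ := Finset.exists_ne_zero_of_sum_ne_zero h6
  have hb1 := left_ne_zero_of_mul hb
  by_cases h : ∃ x, LE p (Subgroup.zpowers (x * u * x⁻¹)) (KG.cnj x (ep M (Subgroup.centralizer ({u} : Set G)) b)) P E
  · obtain ⟨x, hx⟩ := h
    rw [cc_eq (hst _) hx] at hb1
    have h9 : x * u * x⁻¹ = wp φ i := by
      by_contra hcon
      exact hb1 (if_neg hcon)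
    have h10 : x⁻¹ * wp φ i * x⁻¹⁻¹ = u := by rw [← h9]; group
    refine ⟨x⁻¹, y, hy, ?_, ?_⟩
    · rw [h10]; exact hcm.eq
    · rw [h10]; exact huy.symm
  · exact absurd (cc_zero h) hb1

/-- the section integral of a block character of the family -/
theorem AA_fam (hM : IsPModular p M) (hP : BP p (epG M B) P E) (htop : KG.Top p P E)
    (hn : Nilp p (epG M B)) {q : ℕ} [NeZero q] (φ : Multiplicative (ZMod q) ≃* P) {χ₀ : IrrCharacter G}
    {χ : ZMod q → IrrCharacter G}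
    (hχst : ∀ a, ∀ [Fintype P], st p P E (xf P (lam φ a : P → ℂ)) (χ₀ : G → ℂ) = (χ a : G → ℂ))
    {m : ZMod q} (hgen : Subgroup.zpowers (wp φ m) = P)
    {c' : Set (IrrCharacter (Subgroup.centralizer ({wp φ m} : Set G)))} (hc' : IsPBlock M c')
    (hE : ep M (Subgroup.centralizer ({wp φ m} : Set G)) c' = E)
    {ψ : IrrCharacter (Subgroup.centralizer ({wp φ m} : Set G))} (hψ : ψ ∈ c') {Ψ : G → ℂ}
    (hΨ : ∀ y : Subgroup.centralizer ({wp φ m} : Set G), ¬ p ∣ orderOf y → Ψ (y : G) = (ψ : Subgroup.centralizer ({wp φ m} : Set G) → ℂ) y)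
    (hΨ0 : ∀ y : G, Ψ y ≠ 0 → y ∈ Subgroup.centralizer ({wp φ m} : Set G) ∧ ¬ p ∣ orderOf y) (a : ZMod q) :
    AA (wp φ m) Ψ (χ a : G → ℂ) = Cyh.ee (a * m) * AA (wp φ m) Ψ (χ₀ : G → ℂ) := by
  classical
  letI : Fintype P := Fintype.ofFinite _
  have hab : ∀ x ∈ P, ∀ y ∈ P, x * y = y * x := fun x hx y hy =>
    congrArg Subtype.val (P_comm φ ⟨x, hx⟩ ⟨y, hy⟩)
  have hst : ∀ η : G → ℂ, Stab p P E η := stab_ab hM hP htop hn hab
  have hcl := IsIrr.isClass χ₀.2
  have hu : ∃ k : ℕ, orderOf (wp φ m) = p ^ k := by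
    obtain ⟨k, hk⟩ := IsPGroup.iff_orderOf.1 hP.pg ⟨wp φ m, wp_mem φ m⟩
    rw [Subgroup.orderOf_mk] at hk
    exact ⟨k, hk⟩
  haveI : Fintype (Subgroup.centralizer ({wp φ m} : Set G)) := Fintype.ofFinite _
  haveI : Fintype (IrrCharacter (Subgroup.centralizer ({wp φ m} : Set G))) := Fintype.ofFinite _
  have h1 : ∀ f : G → ℂ, AA (wp φ m) Ψ f = ∑ y : Subgroup.centralizer ({wp φ m} : Set G),
      (if p ∣ orderOf y then 0 else bp (wp φ m) c' f y * conj ((ψ : Subgroup.centralizer ({wp φ m} : Set G) → ℂ) y)) := by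
    intro f
    have h2 := adj_reg hM hc' (fun c : Subgroup.centralizer ({wp φ m} : Set G) => f (wp φ m * (c : G)))
      (ψ : Subgroup.centralizer ({wp φ m} : Set G) → ℂ)
    have h3 : ∀ y : Subgroup.centralizer ({wp φ m} : Set G), blockPart c' (fun c : Subgroup.centralizer ({wp φ m} : Set G) => f (wp φ m * (c : G))) y =
      bp (wp φ m) c' f y := fun y => rfl
    simp only [h3] at h2
    rw [h2]
    unfold AA
    have h4 : ∀ y : G, f (wp φ m * y) * conj (Ψ y) ≠ 0 → y ∈ Subgroup.centralizer ({wp φ m} : Set G) := by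
      intro y hy
      exact (hΨ0 y (fun h => hy (by rw [h, map_zero, mul_zero]))).1
    have h5 : ∑ y : G, f (wp φ m * y) * conj (Ψ y) =
        ∑ y : Subgroup.centralizer ({wp φ m} : Set G), f (wp φ m * (y : G)) * conj (Ψ (y : G)) := by
      symm
      refine Finset.sum_bij_ne_zero (fun y _ _ => (y : G)) (fun _ _ _ => Finset.mem_univ _)
        (fun a _ _ b _ _ h => Subtype.ext h) ?_ (fun _ _ _ => rfl)
      intro y _ hy
      exact ⟨⟨y, h4 y hy⟩, Finset.mem_univ _, hy, rfl⟩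
    rw [h5]
    refine Finset.sum_congr rfl fun y _ => ?_
    by_cases hy : p ∣ orderOf y
    · rw [if_pos hy]
      have : Ψ (y : G) = 0 := by
        by_contra h
        exact (hΨ0 _ h).2 (by rw [Subgroup.orderOf_coe]; exact hy)
      rw [this, map_zero, mul_zero]
    · rw [if_neg hy, hΨ y hy, blockPart_irr, if_pos hψ]
  rw [h1, h1, Finset.mul_sum]
  refine Finset.sum_congr rfl fun y _ => ?_
  by_cases hy : p ∣ orderOf y
  · rw [if_pos hy, if_pos hy, mul_zero]
  · rw [if_neg hy, if_neg hy, ← mul_assoc]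
    congr 1
    rw [← hχst a, bp_st hM _ hcl hu hc' y hy]
    congr 1
    have h2 : LE p (Subgroup.zpowers ((1 : G) * wp φ m * (1 : G)⁻¹))
        (KG.cnj 1 (ep M (Subgroup.centralizer ({wp φ m} : Set G)) c')) P E := by
      rw [cnj_one_apply, one_mul, inv_one, mul_one, hE, hgen]
      exact LE.refl _ _
    rw [cc_eq (hst _) h2, one_mul, inv_one, mul_one, xf_lam]

/-- the section integral does not vanish -/
theorem AA_ne (hM : IsPModular p M) (hB : IsPBlock M B) (hP : BP p (epG M B) P E) (htop : KG.Top p P E)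
    {x : G} (hgen : Subgroup.zpowers x = P) {χ₀ : IrrCharacter G} (hχ : χ₀ ∈ B)
    (hab : ∀ x ∈ P, ∀ y ∈ P, x * y = y * x)
    {c' : Set (IrrCharacter (Subgroup.centralizer ({x} : Set G)))} (hc' : IsPBlock M c')
    (hE : ep M (Subgroup.centralizer ({x} : Set G)) c' = E)
    {ψ : IrrCharacter (Subgroup.centralizer ({x} : Set G))} (hψ : ψ ∈ c')
    (hag : ∀ φ ∈ c', ∀ φ' ∈ c', ∀ y : Subgroup.centralizer ({x} : Set G), ¬ p ∣ orderOf y →
      (φ : Subgroup.centralizer ({x} : Set G) → ℂ) y = (φ' : Subgroup.centralizer ({x} : Set G) → ℂ) y)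
    {Ψ : G → ℂ}
    (hΨ : ∀ y : Subgroup.centralizer ({x} : Set G), ¬ p ∣ orderOf y → Ψ (y : G) = (ψ : Subgroup.centralizer ({x} : Set G) → ℂ) y)
    (hΨ0 : ∀ y : G, Ψ y ≠ 0 → y ∈ Subgroup.centralizer ({x} : Set G) ∧ ¬ p ∣ orderOf y) :
    AA x Ψ (χ₀ : G → ℂ) ≠ 0 := by
  classical
  have hu : ∃ k : ℕ, orderOf x = p ^ k := by
    obtain ⟨k, hk⟩ := IsPGroup.iff_orderOf.1 hP.pg ⟨x, hgen ▸ Subgroup.mem_zpowers x⟩
    rw [Subgroup.orderOf_mk] at hk
    exact ⟨k, hk⟩
  haveI : Fintype (Subgroup.centralizer ({x} : Set G)) := Fintype.ofFinite _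
  haveI : Fintype (IrrCharacter (Subgroup.centralizer ({x} : Set G))) := Fintype.ofFinite _
  have hind : IsInducedBlock M (Subgroup.centralizer ({x} : Set G)) c' B := by
    by_contra hcon
    have h1 := cc_ind (P := P) (E := E) (η := fun _ => 1) hM hB hP htop hu hc' hcon
    have h2 : LE p (Subgroup.zpowers ((1 : G) * x * (1 : G)⁻¹))
        (KG.cnj 1 (ep M (Subgroup.centralizer ({x} : Set G)) c')) P E := by
      rw [cnj_one_apply, one_mul, inv_one, mul_one, hE, hgen]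
      exact LE.refl _ _
    rw [cc_eq stab_one h2] at h1
    exact one_ne_zero h1
  have hCe : Subgroup.centralizer ({x} : Set G) = Ce P := by
    rw [← hgen]; exact (AbSec.Ce_zp x).symm
  have hPC : P ≤ Subgroup.centralizer ({x} : Set G) := by
    rw [hCe]; exact le_Ce_ab hab le_rfl
  have hD : IsDefectGroup p M c' (P.subgroupOf (Subgroup.centralizer ({x} : Set G))) := by
    rw [defectH_iff' hM hc' hPC, hE, hCe]
    exact dgh_ab hM hP htop hab (LE.refl _ _)
  have hPD : IsDefectGroup p M B P := (defectG_iff hM hB).2 (BPDef.Top.dgh htop hP)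
  have hmaj : blockDefect p c' = blockDefect p B := by
    have h1 := card_defectGroup hM hc' hD
    have h2 := card_defectGroup hM hB hPD
    rw [Nat.card_congr (Subgroup.subgroupOfEquivOfLe hPC).toEquiv, h2] at h1
    exact Nat.pow_right_injective hp.out.two_le h1.symm
  obtain ⟨y₀, hy₀, hne⟩ := sec_ne' hM rfl hu hind hmaj hχ
  -- the block part is a multiple of the canonical character
  obtain ⟨κ, hκ⟩ : ∃ κ : ℂ, ∀ y : Subgroup.centralizer ({x} : Set G), ¬ p ∣ orderOf y →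
      blockPart c' (fun c : Subgroup.centralizer ({x} : Set G) => (χ₀ : G → ℂ) (x * (c : G))) y =
      κ * (ψ : Subgroup.centralizer ({x} : Set G) → ℂ) y := by
    have hz : ∀ c : Subgroup.centralizer ({x} : Set G), c * zz x = zz x * c := zz_comm
    refine ⟨∑ φ : IrrCharacter (Subgroup.centralizer ({x} : Set G)), if φ ∈ c' then
      (aa (Subgroup.centralizer ({x} : Set G)) χ₀ φ : ℂ) * ((φ : Subgroup.centralizer ({x} : Set G) → ℂ) (zz x) /
        (φ : Subgroup.centralizer ({x} : Set G) → ℂ) 1) else 0, ?_⟩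
    intro y hy
    rw [bp_form rfl c' χ₀ (zz x) rfl y, Finset.sum_mul]
    refine Finset.sum_congr rfl fun φ _ => ?_
    by_cases hφ : φ ∈ c'
    · rw [if_pos hφ, if_pos hφ, central_mul hz, hag φ hφ ψ hψ y hy]
      ring
    · rw [if_neg hφ, if_neg hφ, zero_mul]
  have hκ0 : κ ≠ 0 := by
    rintro rfl
    rw [hκ y₀ hy₀, zero_mul] at hne
    exact hne rfl
  have h2 := adj_reg hM hc' (fun c : Subgroup.centralizer ({x} : Set G) => (χ₀ : G → ℂ) (x * (c : G)))
      (ψ : Subgroup.centralizer ({x} : Set G) → ℂ)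
  have h5 : AA x Ψ (χ₀ : G → ℂ) =
      ∑ y : Subgroup.centralizer ({x} : Set G), (χ₀ : G → ℂ) (x * (y : G)) * conj (Ψ (y : G)) := by
    unfold AA
    symm
    refine Finset.sum_bij_ne_zero (fun y _ _ => (y : G)) (fun _ _ _ => Finset.mem_univ _)
      (fun a _ _ b _ _ h => Subtype.ext h) ?_ (fun _ _ _ => rfl)
    intro y _ hy
    exact ⟨⟨y, (hΨ0 y (fun h => hy (by rw [h, map_zero, mul_zero]))).1⟩, Finset.mem_univ _, hy, rfl⟩
  have h6 : AA x Ψ (χ₀ : G → ℂ) = κ * ∑ y : Subgroup.centralizer ({x} : Set G), (if p ∣ orderOf y then 0 else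
      (ψ : Subgroup.centralizer ({x} : Set G) → ℂ) y * conj ((ψ : Subgroup.centralizer ({x} : Set G) → ℂ) y)) := by
    rw [h5, Finset.mul_sum]
    have h7 : ∑ y : Subgroup.centralizer ({x} : Set G), (χ₀ : G → ℂ) (x * (y : G)) * conj (Ψ (y : G)) =
        ∑ y : Subgroup.centralizer ({x} : Set G), (if p ∣ orderOf y then 0 else
          (χ₀ : G → ℂ) (x * (y : G)) * conj (blockPart c' (ψ : Subgroup.centralizer ({x} : Set G) → ℂ) y)) := by
      refine Finset.sum_congr rfl fun y _ => ?_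
      by_cases hy : p ∣ orderOf y
      · rw [if_pos hy]
        have : Ψ (y : G) = 0 := by
          by_contra h
          exact (hΨ0 _ h).2 (by rw [Subgroup.orderOf_coe]; exact hy)
        rw [this, map_zero, mul_zero]
      · rw [if_neg hy, hΨ y hy, blockPart_irr, if_pos hψ]
    rw [h7, ← h2]
    refine Finset.sum_congr rfl fun y _ => ?_
    by_cases hy : p ∣ orderOf y
    · rw [if_pos hy, if_pos hy, mul_zero]
    · rw [if_neg hy, if_neg hy, hκ y hy]; ring
  rw [h6]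
  refine mul_ne_zero hκ0 ?_
  have h8 : ∑ y : Subgroup.centralizer ({x} : Set G), (if p ∣ orderOf y then (0 : ℂ) else
      (ψ : Subgroup.centralizer ({x} : Set G) → ℂ) y * conj ((ψ : Subgroup.centralizer ({x} : Set G) → ℂ) y)) =
      ((∑ y : Subgroup.centralizer ({x} : Set G), (if p ∣ orderOf y then (0 : ℝ) else
        Complex.normSq ((ψ : Subgroup.centralizer ({x} : Set G) → ℂ) y)) : ℝ) : ℂ) := by
    rw [Complex.ofReal_sum]
    refine Finset.sum_congr rfl fun y _ => ?_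
    split_ifs
    · simp
    · rw [Complex.mul_conj]
  rw [h8, Ne, Complex.ofReal_eq_zero]
  apply ne_of_gt
  refine Finset.sum_pos' (fun y _ => ?_) ⟨1, Finset.mem_univ _, ?_⟩
  · split_ifs
    · exact le_rfl
    · exact Complex.normSq_nonneg _
  · rw [if_neg (by rw [orderOf_one]; exact fun h => hp.out.one_lt.ne' (Nat.dvd_one.1 h))]
    exact Complex.normSq_pos.2 (IsIrr.one_ne_zero ψ.2)

end lev

end Cfsg.Agent.H25.Cyx
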