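import Mathlib
import Cfsg.Agent.H25_Cyx

/-!
H25_Cyy: the equivariant family of characters in the centralizer of the subgroup of order p.
-/

set_option autoImplicit false
set_option linter.unusedSectionVars false

open scoped ComplexConjugate

namespace Cfsg.Agent.H25.Cyy

open Cfsg Cfsg.Agent.H3 Cfsg.Agent.H3.CharIrr Cfsg.Agent.H3.CharComplete Cfsg.Agent.H3.CharBasic
  Cfsg.Agent.H10.BlockLoc Cfsg.Agent.H10.BlockAlg Cfsg.Agent.H10.BlockIdem Cfsg.Agent.H10.Char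
  Cfsg.Agent.H10.BlockSMT Cfsg.Agent.H10.BlockSMT2 Cfsg.Agent.H10.BlockTrace Cfsg.Agent.H10.BlockDefect
  Cfsg.Agent.H10.BlockMain Cfsg.Agent.H10.BlockHZ
  Cfsg.Agent.H10.PPart Cfsg.Agent.H25.IndCong Cfsg.Agent.H25.Red Cfsg.Agent.H25.KG Cfsg.Agent.H25.Up
  Cfsg.Agent.H25.BPTr Cfsg.Agent.H25.BPMain Cfsg.Agent.H25.BPDef Cfsg.Agent.H25.Fus Cfsg.Agent.H25.Nilp
  Cfsg.Agent.H25.NilpAb Cfsg.Agent.H25.Rel Cfsg.Agent.H25.FMT Cfsg.Agent.H25.Sub Cfsg.Agent.H25.Sub2 Cfsg.Agent.H25.Cyk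
  Cfsg.Agent.H25.STk Cfsg.Agent.H25.STl Cfsg.Agent.H25.STr Cfsg.Agent.H25.Cys
  Cfsg.Agent.H25.Cyn Cfsg.Agent.H25.Cyi Cfsg.Agent.H25.Cyx

section ex

variable {G : Type*} [Group G] {P : Subgroup G} {q : ℕ} [NeZero q] (φ : Multiplicative (ZMod q) ≃* P)

theorem wp_mul_nat (i : ZMod q) (n : ℕ) : wp φ (i * n) = wp φ i ^ n := by
  induction n with
  | zero => rw [Nat.cast_zero, mul_zero, wp_zero, pow_zero]
  | succ n ih => rw [Nat.cast_succ, mul_add, mul_one, wp_add, ih, pow_succ]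

theorem cj_wp {t : G} {α : ZMod q} (h : t * wp φ 1 * t⁻¹ = wp φ α) (i : ZMod q) :
    t * wp φ i * t⁻¹ = wp φ (α * i) := by
  have h1 : ((i.val : ℕ) : ZMod q) = i := ZMod.natCast_zmod_val i
  rw [← h1, wp_mul_nat, ← h, wp_nat, conj_pow]

theorem exists_ex {t : G} (ht : t ∈ Nm P) : ∃ α : ZMod q, ∀ i, t * wp φ i * t⁻¹ = wp φ (α * i) := by
  have h1 : t * wp φ 1 * t⁻¹ ∈ P := (Subgroup.mem_normalizer_iff.1 ht _).1 (wp_mem φ 1)
  obtain ⟨α, hα⟩ := wp_surj φ h1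
  exact ⟨α, cj_wp φ hα.symm⟩

/-- the exponent of the action -/
noncomputable def exf (t : Nm P) : ZMod q := (exists_ex φ t.2).choose

theorem exf_spec (t : Nm P) (i : ZMod q) : (t : G) * wp φ i * (t : G)⁻¹ = wp φ (exf φ t * i) :=
  (exists_ex φ t.2).choose_spec i

theorem exf_eq {t : Nm P} {α : ZMod q} (h : (t : G) * wp φ 1 * (t : G)⁻¹ = wp φ α) : exf φ t = α := by
  rw [exf_spec, mul_one] at h
  exact wp_inj φ h

theorem exf_mul (s t : Nm P) : exf φ (s * t) = exf φ s * exf φ t := by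
  apply exf_eq
  have h1 := exf_spec φ t 1
  have h2 := exf_spec φ s (exf φ t)
  rw [mul_one] at h1
  rw [← h2, ← h1, Subgroup.coe_mul]
  group

theorem exf_one : exf φ (1 : Nm P) = 1 := by
  apply exf_eq
  rw [Subgroup.coe_one]; group

/-- the action on the cyclic group -/
noncomputable def ex : Nm P →* (ZMod q)ˣ where
  toFun t := ⟨exf φ t, exf φ t⁻¹, by rw [← exf_mul, mul_inv_cancel, exf_one], by rw [← exf_mul, inv_mul_cancel, exf_one]⟩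
  map_one' := Units.ext (exf_one φ)
  map_mul' s t := Units.ext (exf_mul φ s t)

theorem ex_spec (t : Nm P) (i : ZMod q) : (t : G) * wp φ i * (t : G)⁻¹ = wp φ ((ex φ t : ZMod q) * i) :=
  exf_spec φ t i

theorem ex_eq {t : Nm P} {α : (ZMod q)ˣ} (h : (t : G) * wp φ 1 * (t : G)⁻¹ = wp φ α) : ex φ t = α :=
  Units.ext (exf_eq φ h)

theorem ker_ex : (ex φ).ker = (Ce P).subgroupOf (Nm P) := by
  ext t
  rw [MonoidHom.mem_ker, Subgroup.mem_subgroupOf]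
  constructor
  · intro h
    rw [Subgroup.mem_centralizer_iff]
    intro x hx
    obtain ⟨i, rfl⟩ := wp_surj φ hx
    have h1 := ex_spec φ t i
    rw [h, Units.val_one, one_mul] at h1
    exact (mul_inv_eq_iff_eq_mul.1 h1).symm
  · intro h
    apply ex_eq
    rw [Units.val_one, mul_inv_eq_iff_eq_mul]
    exact (Subgroup.mem_centralizer_iff.1 h _ (wp_mem φ 1)).symm

/-- the image of the stabilizer -/
noncomputable def HT (T : Subgroup G) : Subgroup (ZMod q)ˣ := (T.subgroupOf (Nm P)).map (ex φ)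

variable {φ} in
theorem mem_HT {T : Subgroup G} {h : (ZMod q)ˣ} : h ∈ HT φ T ↔ ∃ t, ∃ ht : t ∈ Nm P, t ∈ T ∧ ex φ ⟨t, ht⟩ = h := by
  unfold HT
  rw [Subgroup.mem_map]
  constructor
  · rintro ⟨⟨t, ht⟩, h1, h2⟩
    exact ⟨t, ht, Subgroup.mem_subgroupOf.1 h1, h2⟩
  · rintro ⟨t, ht, h1, h2⟩
    exact ⟨⟨t, ht⟩, Subgroup.mem_subgroupOf.2 h1, h2⟩

theorem card_HT {T : Subgroup G} (hT : T ≤ Nm P) : Nat.card (HT φ T) = (Ce P).relIndex T := by
  have h1 : HT φ T = ((ex φ).comp (Subgroup.inclusion hT)).range := by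
    ext h
    rw [mem_HT, MonoidHom.mem_range]
    constructor
    · rintro ⟨t, ht, h1, h2⟩
      exact ⟨⟨t, h1⟩, h2⟩
    · rintro ⟨⟨t, ht⟩, h1⟩
      exact ⟨t, hT ht, ht, h1⟩
  rw [h1, ← Subgroup.index_ker]
  congr 1
  ext ⟨t, ht⟩
  rw [MonoidHom.mem_ker, Subgroup.mem_subgroupOf]
  have h3 : (⟨t, hT ht⟩ : Nm P) ∈ (ex φ).ker ↔ t ∈ Ce P := by
    rw [ker_ex φ, Subgroup.mem_subgroupOf]
  rw [MonoidHom.mem_ker] at h3
  exact h3

end ex

/-- the equivariant family -/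
structure Fam3 {G : Type*} [Group G] (p : ℕ) (M : Ideal AlgInt) {P Q : Subgroup G} (b : Set (IrrCharacter (Ce Q)))
    (T : Subgroup G) {q : ℕ} [NeZero q] (φ : Multiplicative (ZMod q) ≃* P) (θ : ZMod q → IrrCharacter (Ce Q)) : Prop where
  mem : ∀ a, θ a ∈ b
  surj : ∀ ψ ∈ b, ∃ a, θ a = ψ
  inj : Function.Injective θ
  supp : ∀ i (g : Ce Q), ∑ a, Cyh.ee (-(a * i)) * (θ a : Ce Q → ℂ) g ≠ 0 → ∃ c y : Ce Q, ¬ p ∣ orderOf y ∧
    Commute ((c : G) * wp φ i * (c : G)⁻¹) (y : G) ∧ (g : G) = (c : G) * wp φ i * (c : G)⁻¹ * y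
  loc : ∀ i (g : Ce Q), ∃ τ, MemLocalRing M τ ∧ ∑ a, Cyh.ee (-(a * i)) * (θ a : Ce Q → ℂ) g = q * τ
  eqv : ∀ (t : Nm P), (t : G) ∈ T → ∀ a (c c' : Ce Q), (c' : G) = t * c * (t : G)⁻¹ →
    (θ a : Ce Q → ℂ) c' = (θ ((ex φ t : ZMod q) * a) : Ce Q → ℂ) c

section data

variable {p : ℕ} {M : Ideal AlgInt} {G : Type*} [Group G] [Fintype G] [hMax : M.IsMaximal]
  [hp : Fact p.Prime] [hch : CharP (KM M) p] {P Q : Subgroup G} {B E f : MonoidAlgebra (KM M) G}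

/-- transfer of the maximal pair to the centralizer -/
theorem lev_data (hM : IsPModular p M) (hP : BP p B P E) (htop : KG.Top p P E)
    (hab : ∀ x ∈ P, ∀ y ∈ P, x * y = y * x) [Fintype (Ce Q)] {b : Set (IrrCharacter (Ce Q))} (hb : IsPBlock M b)
    (hle : LE p Q (ep M (Ce Q) b) P E) :
    ∃ E' : MonoidAlgebra (KM M) (Ce Q), up (KM M) (Ce Q) E' = E ∧ BP p (epG M b) (P.subgroupOf (Ce Q)) E' ∧
      KG.Top p (P.subgroupOf (Ce Q)) E' := by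
  obtain ⟨hQ, hf⟩ := hle.pair hP.pg hP.be
  have hPC : P ≤ Ce Q := le_Ce_ab hab hle.le
  have hD := dgh_ab hM hP htop hab hle
  have hns : NS p Q (ep M (Ce Q) b) P E := LE.ns hP.pg hP.be hle (hPC.trans (Ce_le_Nm Q))
  have hCP : Ce P ≤ Ce Q := Ce_anti hle.le
  obtain ⟨E', rfl⟩ := up_surj (hP.be.mem.1.mono hCP)
  obtain ⟨P', rfl⟩ : ∃ P' : Subgroup (Ce Q), P'.map (Ce Q).subtype = P := ⟨P.subgroupOf _, of_map hPC⟩
  have h5 : (P'.map (Ce Q).subtype).subgroupOf (Ce Q) = P' := by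
    rw [Subgroup.subgroupOf, Subgroup.comap_map_eq_self_of_injective (Subgroup.subtype_injective (Ce Q))]
  rw [h5]
  rw [← up_epG] at hf hD hns
  have hf' : IsBlk ⊤ (epG M b) := blk_top_iff.1 hf
  have hD' : DGH p ⊤ (epG M b) P' := by
    rw [← dgh_map_iff, top_map]; exact hD
  have hbp := bp_up hCP hf' hD'.pg hP.be hns.tr
  exact ⟨E', rfl, hbp, top_of_dgh hD' hbp⟩

end data

section can

variable {p : ℕ} {M : Ideal AlgInt} {G : Type*} [Group G] [Fintype G] [hMax : M.IsMaximal]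
  [hp : Fact p.Prime] [hch : CharP (KM M) p] {P Q : Subgroup G} {B E f : MonoidAlgebra (KM M) G}

/-- the centralizer of a generator -/
def sig {x : Ce Q} (hx : Subgroup.zpowers (x : G) = P) (hCP : Ce P ≤ Ce Q) :
    Ce P ≃* Subgroup.centralizer ({x} : Set (Ce Q)) where
  toFun y := ⟨⟨y, hCP y.2⟩, by
    rw [mem_Ce1]
    apply Subtype.ext
    show (y : G) * x = x * y
    exact (Subgroup.mem_centralizer_iff.1 y.2 _ (hx ▸ Subgroup.mem_zpowers (x : G))).symm⟩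
  invFun y := ⟨(y : Ce Q), by
    have h1 : (y : Ce Q) * x = x * y := mem_Ce1.1 y.2
    rw [← hx]
    show ((y : Ce Q) : G) ∈ Ce (Subgroup.zpowers (x : G))
    rw [AbSec.Ce_zp, mem_Ce1]
    exact congrArg Subtype.val h1⟩
  left_inv y := rfl
  right_inv y := rfl
  map_mul' y z := rfl

theorem sig_coe {x : Ce Q} (hx : Subgroup.zpowers (x : G) = P) (hCP : Ce P ≤ Ce Q) (y : Ce P) :
    (((sig hx hCP y : Subgroup.centralizer ({x} : Set (Ce Q))) : Ce Q) : G) = y := rfl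

theorem ep_sig [Fintype (Ce Q)] {x : Ce Q} (hx : Subgroup.zpowers (x : G) = P) (hCP : Ce P ≤ Ce Q)
    {c : Set (IrrCharacter (Ce P))} {E' : MonoidAlgebra (KM M) (Ce Q)} (hE : up (KM M) (Ce Q) E' = ep M (Ce P) c) :
    ep M (Subgroup.centralizer ({x} : Set (Ce Q))) (tB (sig hx hCP) c) = E' := by
  apply up_inj (k := KM M) (H := Ce Q)
  rw [hE]
  apply ext_c
  intro y
  by_cases hy : y ∈ Ce P
  · rw [up_c' _ (hCP hy), ep_c, ep_c, sbc_mem _ hy]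
    have h1 : (⟨y, hCP hy⟩ : Ce Q) ∈ Subgroup.centralizer ({x} : Set (Ce Q)) := (sig hx hCP ⟨y, hy⟩).2
    rw [sbc_mem _ h1]
    congr 1
    exact blockCoeff_tB (sig hx hCP) c ⟨y, hy⟩
  · rw [ep_c, sbc_notMem _ hy]
    by_cases hy' : y ∈ Ce Q
    · rw [up_c' _ hy', ep_c, sbc_notMem]
      intro h
      exact hy ((sig hx hCP).symm ⟨_, h⟩).2
    · rw [up_c_not _ hy']
      unfold rd
      rw [dif_pos ring_zero]
      exact (map_zero _).symm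

open Classical in
/-- the canonical function -/
noncomputable def Psi (p : ℕ) (ψ : IrrCharacter (Ce P)) (y : G) : ℂ :=
  if h : y ∈ Ce P ∧ ¬ p ∣ orderOf y then (ψ : Ce P → ℂ) ⟨y, h.1⟩ else 0

theorem Psi_conj {c : Set (IrrCharacter (Ce P))} (hc : IsPBlock M c)
    (hag : ∀ φ ∈ c, ∀ φ' ∈ c, ∀ y : Ce P, ¬ p ∣ orderOf y → (φ : Ce P → ℂ) y = (φ' : Ce P → ℂ) y)
    {ψ : IrrCharacter (Ce P)} (hψ : ψ ∈ c) {t : G} (ht : t ∈ Nf P (ep M (Ce P) c)) (y : G) :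
    Psi p ψ (t * y * t⁻¹) = Psi p ψ y := by
  have htn := (mem_Nf.1 ht).1
  have hn := norm_le_norm_Ce P htn
  have hmem : ∀ y, t * y * t⁻¹ ∈ Ce P ↔ y ∈ Ce P := fun y => (Subgroup.mem_normalizer_iff.1 hn y).symm
  by_cases hy : y ∈ Ce P ∧ ¬ p ∣ orderOf y
  · have h1 : StabilizesBlock (Ce P) c t := (stabilizes_iff hc t).2 ⟨hn, (mem_Nf.1 ht).2⟩
    obtain ⟨χ', hχ', hcj⟩ := h1.2 ψ hψ
    have h2 := hcj ⟨y, hy.1⟩ ⟨t * y * t⁻¹, (hmem y).2 hy.1⟩ rfl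
    have h3 : ¬ p ∣ orderOf (t * y * t⁻¹) := by rw [orderOf_conj]; exact hy.2
    have e1 : Psi p ψ (t * y * t⁻¹) = (ψ : Ce P → ℂ) ⟨t * y * t⁻¹, (hmem y).2 hy.1⟩ := dif_pos ⟨(hmem y).2 hy.1, h3⟩
    have e2 : Psi p ψ y = (ψ : Ce P → ℂ) ⟨y, hy.1⟩ := dif_pos hy
    rw [e1, e2, hag ψ hψ χ' hχ' _ (by rw [Subgroup.orderOf_mk]; exact h3)]
    exact h2
  · have e1 : Psi p ψ y = 0 := dif_neg hy
    have e2 : Psi p ψ (t * y * t⁻¹) = 0 := by
      apply dif_neg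
      rintro ⟨h3, h4⟩
      exact hy ⟨(hmem y).1 h3, by rwa [orderOf_conj] at h4⟩
    rw [e1, e2]

end can

section fam

variable {p : ℕ} {M : Ideal AlgInt} {G : Type*} [Group G] [Fintype G] [hMax : M.IsMaximal]
  [hp : Fact p.Prime] [hch : CharP (KM M) p] {P Q : Subgroup G} {B E : MonoidAlgebra (KM M) G}

theorem zp_unit {G : Type*} [Group G] {P : Subgroup G} {q : ℕ} [NeZero q] (φ : Multiplicative (ZMod q) ≃* P)
    (m : (ZMod q)ˣ) : Subgroup.zpowers (wp φ (m : ZMod q)) = P := by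
  apply le_antisymm
  · rw [Subgroup.zpowers_le]; exact wp_mem φ _
  · intro x hx
    obtain ⟨i, rfl⟩ := wp_surj φ hx
    have h1 : i = (m : ZMod q) * ((((m⁻¹ : (ZMod q)ˣ) : ZMod q) * i).val : ℕ) := by
      rw [ZMod.natCast_zmod_val, ← mul_assoc, Units.mul_inv, one_mul]
    rw [h1, wp_mul_nat]
    exact Subgroup.npow_mem_zpowers _ _

theorem ee_int {q : ℕ} [NeZero q] (a : ZMod q) : IsIntegral ℤ (Cyh.ee a) := by
  have h1 : ∀ n : ℕ, Cyh.ee a ^ n = Cyh.ee (a * (n : ZMod q)) := by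
    intro n
    induction n with
    | zero => rw [pow_zero, Nat.cast_zero, mul_zero, Cyh.ee_zero]
    | succ n ih => rw [pow_succ, ih, ← Cyh.ee_add, Nat.cast_succ]; congr 1; ring
  refine IsIntegral.of_pow (NeZero.pos q) ?_
  rw [h1, CharP.cast_eq_zero, mul_zero, Cyh.ee_zero]
  exact isIntegral_one

/-- stabilizers permute the block -/
theorem tr_mem {b : Set (IrrCharacter (Ce Q))} (hb : IsPBlock M b) {t : G} (ht : t ∈ Nf Q (ep M (Ce Q) b))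
    (hK : Ce Q = cs t (Ce Q)) {χ : IrrCharacter (Ce Q)} (hχ : χ ∈ b) : H10.BlockEFM.tr (cI t hK) χ ∈ b := by
  haveI : Fintype (Ce Q) := Fintype.ofFinite _
  have h1 : tB (cI t hK) b = b := by
    refine ep_inj (isPBlock_tB (cI t hK) hb) hb ?_
    rw [ep_conj, (mem_Nf.1 ht).2]
  rw [← mem_tB, h1]
  exact hχ

set_option maxHeartbeats 1000000 in
theorem exists_pre (hM : IsPModular p M) (hP : BP p B P E) (htop : KG.Top p P E) (hc : IsCyclic P) (hP1 : P ≠ ⊥)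
    {q : ℕ} [NeZero q] (φ : Multiplicative (ZMod q) ≃* P)
    {b : Set (IrrCharacter (Ce Q))} (hb : IsPBlock M b) (hnil : IsNilpotentBlock p M b)
    (hle : LE p Q (ep M (Ce Q) b) P E) :
    ∃ θ : ZMod q → IrrCharacter (Ce Q), (∀ a, θ a ∈ b) ∧ (∀ ψ ∈ b, ∃ a, θ a = ψ) ∧ Function.Injective θ ∧
      (∀ i (g : Ce Q), ∑ a, Cyh.ee (-(a * i)) * (θ a : Ce Q → ℂ) g ≠ 0 → ∃ c y : Ce Q, ¬ p ∣ orderOf y ∧
        Commute ((c : G) * wp φ i * (c : G)⁻¹) (y : G) ∧ (g : G) = (c : G) * wp φ i * (c : G)⁻¹ * y) ∧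
      (∀ i (g : Ce Q), ∃ τ, MemLocalRing M τ ∧ ∑ a, Cyh.ee (-(a * i)) * (θ a : Ce Q → ℂ) g = q * τ) ∧
      ∀ (t : Nm P), (t : G) ∈ Nf P E → ∃ β : ZMod q, ∀ a (c c' : Ce Q), (c' : G) = t * c * (t : G)⁻¹ →
        (θ a : Ce Q → ℂ) c' = (θ ((ex φ t : ZMod q) * a + β) : Ce Q → ℂ) c := by
  classical
  haveI : Fintype (Ce Q) := Fintype.ofFinite _
  have hab := cyc_comm hc
  obtain ⟨E', hE', hbp', htop'⟩ := lev_data hM hP htop hab hb hle
  have hPC : P ≤ Ce Q := le_Ce_ab hab hle.le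
  have hCP : Ce P ≤ Ce Q := Ce_anti hle.le
  set φ' : Multiplicative (ZMod q) ≃* P.subgroupOf (Ce Q) := φ.trans (Subgroup.subgroupOfEquivOfLe hPC).symm with hφ'
  have hwp : ∀ i, ((wp φ' i : Ce Q) : G) = wp φ i := fun i => rfl
  have hn : Nilp p (epG M b) := (nilp_iff.1 hnil).2
  obtain ⟨χ₀, hχ₀, h0⟩ := exists_height_zero (p := p) hb
  obtain ⟨χ, hχ0, hf2, hst⟩ := exists_fam2 hM hb hbp' htop' hn φ' hχ₀ h0
  obtain ⟨c, hcb, hcE, hcnil, -⟩ := Cyg.rank_cent hM hP htop hc (LE.refl P E) hP1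
  subst hcE
  haveI : Fintype (Ce P) := Fintype.ofFinite _
  have hag := (Cyj.agree hM hcnil ((defectH_iff' hM hcb (le_Ce_ab hab le_rfl)).2
    (dgh_ab hM hP htop hab (LE.refl _ _))) (by
      rintro ⟨⟨x, hx⟩, hx'⟩ ⟨⟨y, hy⟩, hy'⟩
      exact Subtype.ext (Subtype.ext (hab x hx' y hy')))).1
  obtain ⟨ψ, hψ⟩ : ∃ ψ, ψ ∈ c := by
    obtain ⟨ψ, hψ, -⟩ := exists_height_zero (p := p) hcb
    exact ⟨ψ, hψ⟩
  set Ψ : Ce Q → ℂ := fun y => Psi p ψ (y : G) with hΨ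
  -- the data for a generator
  have gen : ∀ m : (ZMod q)ˣ, Subgroup.zpowers (wp φ' (m : ZMod q)) = P.subgroupOf (Ce Q) := fun m => zp_unit φ' m
  have gen' : ∀ m : (ZMod q)ˣ, Subgroup.zpowers ((wp φ' (m : ZMod q) : Ce Q) : G) = P := fun m => zp_unit φ m
  have dat : ∀ m : (ZMod q)ˣ, ∃ c' : Set (IrrCharacter (Subgroup.centralizer ({wp φ' (m : ZMod q)} : Set (Ce Q)))),
      IsPBlock M c' ∧ ep M (Subgroup.centralizer ({wp φ' (m : ZMod q)} : Set (Ce Q))) c' = E' ∧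
      (∀ φ₁ ∈ c', ∀ φ₂ ∈ c', ∀ y : Subgroup.centralizer ({wp φ' (m : ZMod q)} : Set (Ce Q)), ¬ p ∣ orderOf y →
      (φ₁ : Subgroup.centralizer ({wp φ' (m : ZMod q)} : Set (Ce Q)) → ℂ) y =
        (φ₂ : Subgroup.centralizer ({wp φ' (m : ZMod q)} : Set (Ce Q)) → ℂ) y) ∧
      ∃ ψ' ∈ c', (∀ y : Subgroup.centralizer ({wp φ' (m : ZMod q)} : Set (Ce Q)), ¬ p ∣ orderOf y →
        Ψ (y : Ce Q) = (ψ' : Subgroup.centralizer ({wp φ' (m : ZMod q)} : Set (Ce Q)) → ℂ) y) ∧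
        (∀ y : Ce Q, Ψ y ≠ 0 → y ∈ Subgroup.centralizer ({wp φ' (m : ZMod q)} : Set (Ce Q)) ∧ ¬ p ∣ orderOf y) := by
    intro m
    refine ⟨tB (sig (gen' m) hCP) c, isPBlock_tB _ hcb, ep_sig (gen' m) hCP hE', ?_, 
      H10.BlockEFM.tr (sig (gen' m) hCP).symm ψ, tr_mem_tB _ hψ, ?_, ?_⟩
    · rintro φ₁ ⟨ξ₁, h1, h2⟩ φ₂ ⟨ξ₂, h3, h4⟩ y hy
      have h5 : y = sig (gen' m) hCP ((sig (gen' m) hCP).symm y) := (MulEquiv.apply_symm_apply _ _).symm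
      rw [h5, h2, h4]
      apply hag _ h1 _ h3
      rw [MulEquiv.orderOf_eq]
      exact hy
    · intro y hy
      rw [H10.BlockEFM.tr_apply]
      refine dif_pos ⟨((sig (gen' m) hCP).symm y).2, ?_⟩
      rw [Subgroup.orderOf_coe, Subgroup.orderOf_coe]
      exact hy
    · intro y hy
      have h1 : (y : G) ∈ Ce P ∧ ¬ p ∣ orderOf (y : G) := by
        by_contra hcon
        exact hy (dif_neg hcon)
      refine ⟨?_, by rw [← Subgroup.orderOf_coe]; exact h1.2⟩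
      exact (sig (gen' m) hCP ⟨y, h1.1⟩).2
  have key : ∀ (m : (ZMod q)ˣ) (a : ZMod q), AA (wp φ' (m : ZMod q)) Ψ (χ a : Ce Q → ℂ) =
      Cyh.ee (a * (m : ZMod q)) * AA (wp φ' (m : ZMod q)) Ψ (χ 0 : Ce Q → ℂ) := by
    intro m a
    obtain ⟨c', h1, h2, h3, ψ', h4, h5, h6⟩ := dat m
    have := AA_fam hM hbp' htop' hn φ' (χ₀ := χ₀) hst (gen m) h1 h2 h4 h5 h6 a
    rw [this, hχ0]
  have neA : AA (wp φ' ((1 : (ZMod q)ˣ) : ZMod q)) Ψ (χ 0 : Ce Q → ℂ) ≠ 0 := by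
    obtain ⟨c', h1, h2, h3, ψ', h4, h5, h6⟩ := dat 1
    exact AA_ne hM hb hbp' htop' (gen 1) (hf2.mem 0) (fun x hx y hy =>
      Subtype.ext (hab x hx y hy)) h1 h2 h4 h3 h5 h6
  refine ⟨χ, hf2.mem, hf2.surj, hf2.inj, ?_, ?_, ?_⟩
  · intro i g hg
    obtain ⟨c₁, y, h1, h2, h3⟩ := supp_F hM hbp' htop' hn φ' (χ₀ := χ₀) hst i g hg
    exact ⟨c₁, y, h1, congrArg Subtype.val h2, congrArg Subtype.val h3⟩
  · intro i g
    obtain ⟨τ, h1, h2⟩ := hf2.fou (-i) g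
    refine ⟨τ, h1, ?_⟩
    rw [← h2]
    exact Finset.sum_congr rfl fun a _ => by rw [mul_neg]
  · intro t ht
    -- stabilizer of the small pair
    have hN : Nf Q (ep M (Ce Q) b) = Nf P (ep M (Ce P) c) ⊔ Ce Q := Nf_eq hM hP htop hc hle
    have htQ : (t : G) ∈ Nf Q (ep M (Ce Q) b) := by
      rw [hN]; exact Subgroup.mem_sup_left ht
    have hK : Ce Q = cs (t : G) (Ce Q) := (mem_normalizer_iff_cs.1 (norm_le_norm_Ce Q (mem_Nf.1 htQ).1)).symm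
    have hpi : ∀ a, ∃ a', χ a' = H10.BlockEFM.tr (cI (t : G) hK) (χ a) := fun a =>
      hf2.surj _ (tr_mem hb htQ hK (hf2.mem a))
    choose π hπ using hpi
    have hAt : ∀ a, AA (wp φ' ((1 : (ZMod q)ˣ) : ZMod q)) Ψ (χ (π a) : Ce Q → ℂ) =
        AA (wp φ' ((ex φ t : (ZMod q)ˣ) : ZMod q)) Ψ (χ a : Ce Q → ℂ) := by
      intro a
      rw [hπ]
      unfold AA
      refine Fintype.sum_equiv (cI (t : G) hK).toEquiv _ _ fun y => ?_
      have e1 : (cI (t : G) hK).toEquiv y = cI (t : G) hK y := rfl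
      have e2 : Ψ (cI (t : G) hK y) = Ψ y := Psi_conj hcb hag hψ ht (y : G)
      have e3 : cI (t : G) hK (wp φ' ((1 : (ZMod q)ˣ) : ZMod q) * y) =
          wp φ' ((ex φ t : (ZMod q)ˣ) : ZMod q) * cI (t : G) hK y := by
        rw [map_mul]
        congr 1
        apply Subtype.ext
        rw [cI_coe, hwp, hwp, Units.val_one, ex_spec, mul_one]
      rw [e1, e2, ← e3, H10.BlockEFM.tr_apply]
    have hπa : ∀ a, π a = (ex φ t : ZMod q) * a + π 0 := by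
      intro a
      have h1 := hAt a
      have h2 := hAt 0
      rw [key, key (ex φ t) a, ← h2, key 1 (π 0), Units.val_one, mul_one, mul_one, ← mul_assoc, ← Cyh.ee_add] at h1
      have h3 := mul_right_cancel₀ neA h1
      have h4 := ee_inj h3
      rw [h4, mul_comm]
    refine ⟨π 0, ?_⟩
    intro a c₁ c₁' hcc
    rw [← hπa, hπ, H10.BlockEFM.tr_apply]
    have h5 : c₁' = cI (t : G) hK c₁ := Subtype.ext hcc
    rw [h5]

/-- the equivariant family exists -/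
theorem exists_fam3 (hM : IsPModular p M) (hP : BP p B P E) (htop : KG.Top p P E) (hc : IsCyclic P) (hP1 : P ≠ ⊥)
    {q : ℕ} [NeZero q] (φ : Multiplicative (ZMod q) ≃* P)
    {b : Set (IrrCharacter (Ce Q))} (hb : IsPBlock M b) (hnil : IsNilpotentBlock p M b)
    (hle : LE p Q (ep M (Ce Q) b) P E) :
    ∃ θ : ZMod q → IrrCharacter (Ce Q), Fam3 p M b (Nf P E) φ θ := by
  classical
  haveI : Fintype (Ce Q) := Fintype.ofFinite _
  have hCP : Ce P ≤ Ce Q := Ce_anti hle.le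
  obtain ⟨θ, hmem, hsurj, hinj, hsupp, hloc, heqv⟩ := exists_pre hM hP htop hc hP1 φ hb hnil hle
  -- a common fixed point
  obtain ⟨a₀, ha₀⟩ : ∃ a₀ : ZMod q, ∀ (t : Nm P), (t : G) ∈ Nf P E → ∀ (c c' : Ce Q), (c' : G) = t * c * (t : G)⁻¹ →
      (θ a₀ : Ce Q → ℂ) c' = (θ a₀ : Ce Q → ℂ) c := by
    by_cases hall : ∀ t : Nm P, (t : G) ∈ Nf P E → (t : G) ∈ Ce P
    · refine ⟨0, fun t ht c c' hcc => ?_⟩
      have h1 : c' = ⟨(t : G), hCP (hall t ht)⟩ * c * ⟨(t : G), hCP (hall t ht)⟩⁻¹ := Subtype.ext hcc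
      rw [h1]
      exact IsIrr.isClass (θ 0).2 _ _
    · push Not at hall
      obtain ⟨t₀, ht₀, hne⟩ := hall
      have hfree : ∀ i : ZMod q, (1 - (ex φ t₀ : ZMod q)) * i = 0 → i = 0 := by
        intro i hi
        by_contra hi0
        apply hne
        refine free_cyc hM hP htop hc ht₀ (wp_mem φ i) (fun h => hi0 (wp_inj φ (by rw [h, wp_zero]))) ?_
        rw [ex_spec]
        congr 1
        rw [sub_mul, one_mul, sub_eq_zero] at hi
        exact hi.symm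
      have hinj' : Function.Injective (fun i : ZMod q => (1 - (ex φ t₀ : ZMod q)) * i) := by
        intro i j hij
        have : (1 - (ex φ t₀ : ZMod q)) * (i - j) = 0 := by rw [mul_sub]; exact sub_eq_zero.2 hij
        exact sub_eq_zero.1 (hfree _ this)
      have hsur := Finite.surjective_of_injective hinj'
      obtain ⟨β₀, hβ₀⟩ := heqv t₀ ht₀
      obtain ⟨a₀, ha₀⟩ := hsur β₀
      have ha₀' : (1 - (ex φ t₀ : ZMod q)) * a₀ = β₀ := ha₀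
      refine ⟨a₀, fun t ht c c' hcc => ?_⟩
      obtain ⟨β, hβ⟩ := heqv t ht
      have hfix : (ex φ t : ZMod q) * a₀ + β = a₀ := by
        -- commutation
        have hcm : ∀ a, (ex φ t₀ : ZMod q) * ((ex φ t : ZMod q) * a + β) + β₀ =
            (ex φ t : ZMod q) * ((ex φ t₀ : ZMod q) * a + β₀) + β := by
          intro a
          apply hinj
          apply Subtype.ext
          funext d
          have hk : (t₀⁻¹ * t⁻¹ * t₀ * t : Nm P) ∈ (ex φ).ker := by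
            rw [MonoidHom.mem_ker]
            simp only [map_mul, map_inv]
            rw [mul_comm (ex φ t₀)⁻¹, mul_assoc (ex φ t)⁻¹, inv_mul_cancel, mul_one, inv_mul_cancel]
          rw [ker_ex, Subgroup.mem_subgroupOf] at hk
          have hkQ := hCP hk
          have hnm : ∀ s : Nm P, (s : G) ∈ Nf P E → ∀ x : Ce Q, (s : G) * x * (s : G)⁻¹ ∈ Ce Q := by
            intro s hs x
            have hN : Nf Q (ep M (Ce Q) b) = Nf P E ⊔ Ce Q := Nf_eq hM hP htop hc hle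
            have hsQ : (s : G) ∈ Nf Q (ep M (Ce Q) b) := by
              rw [hN]; exact Subgroup.mem_sup_left hs
            exact (Subgroup.mem_normalizer_iff.1 (norm_le_norm_Ce Q (mem_Nf.1 hsQ).1) x).1 x.2
          set k : Ce Q := ⟨_, hkQ⟩ with hkdef
          have e1 := hβ₀ ((ex φ t : ZMod q) * a + β) d ⟨_, hnm t₀ ht₀ d⟩ rfl
          have e2 := hβ a ⟨_, hnm t₀ ht₀ d⟩ ⟨_, hnm t ht ⟨_, hnm t₀ ht₀ d⟩⟩ rfl
          have e3 := hβ ((ex φ t₀ : ZMod q) * a + β₀) (k⁻¹ * d * k⁻¹⁻¹) ⟨_, hnm t ht (k⁻¹ * d * k⁻¹⁻¹)⟩ rfl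
          have e4 := hβ₀ a ⟨_, hnm t ht (k⁻¹ * d * k⁻¹⁻¹)⟩ ⟨_, hnm t₀ ht₀ ⟨_, hnm t ht (k⁻¹ * d * k⁻¹⁻¹)⟩⟩ rfl
          rw [IsIrr.isClass (θ _).2] at e3
          rw [← e1, ← e3, ← e2, ← e4]
          refine congrArg (θ a : Ce Q → ℂ) (Subtype.ext ?_)
          show (t : G) * ((t₀ : G) * d * (t₀ : G)⁻¹) * (t : G)⁻¹ =
            (t₀ : G) * ((t : G) * ((k : G)⁻¹ * d * (k : G)⁻¹⁻¹) * (t : G)⁻¹) * (t₀ : G)⁻¹
          have hkc : (k : G) = (t₀ : G)⁻¹ * (t : G)⁻¹ * (t₀ : G) * t := rfl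
          rw [hkc]
          group
        have h2 := hcm a₀
        have h3 : (ex φ t₀ : ZMod q) * a₀ + β₀ = a₀ := by rw [← ha₀']; ring
        rw [h3] at h2
        have h4 : (1 - (ex φ t₀ : ZMod q)) * ((ex φ t : ZMod q) * a₀ + β - a₀) = 0 := by
          have h5 : β₀ = (1 - (ex φ t₀ : ZMod q)) * a₀ := ha₀'.symm
          rw [h5] at h2
          linear_combination -h2
        exact sub_eq_zero.1 (hfree _ h4)
      rw [hβ a₀ c c' hcc, hfix]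
  refine ⟨fun a => θ (a + a₀), fun a => hmem _, ?_, ?_, ?_, ?_, ?_⟩
  · intro ψ hψ
    obtain ⟨a, rfl⟩ := hsurj ψ hψ
    exact ⟨a - a₀, by rw [sub_add_cancel]⟩
  · intro a a' h
    exact add_right_cancel (hinj h)
  · intro i g hne
    apply hsupp i g
    intro h0
    apply hne
    have h1 : ∑ a, Cyh.ee (-(a * i)) * (θ (a + a₀) : Ce Q → ℂ) g =
        Cyh.ee (a₀ * i) * ∑ a, Cyh.ee (-(a * i)) * (θ a : Ce Q → ℂ) g := by
      rw [← Equiv.sum_comp (Equiv.addRight a₀) (fun a => Cyh.ee (-(a * i)) * (θ a : Ce Q → ℂ) g), Finset.mul_sum]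
      refine Finset.sum_congr rfl fun a _ => ?_
      rw [Equiv.coe_addRight, ← mul_assoc, ← Cyh.ee_add]
      congr 2; ring
    rw [h1, h0, mul_zero]
  · intro i g
    obtain ⟨τ, h1, h2⟩ := hloc i g
    refine ⟨Cyh.ee (a₀ * i) * τ, ring_mul (memLocalRing_of_integral hMax.ne_top (ee_int _)) h1, ?_⟩
    have h1 : ∑ a, Cyh.ee (-(a * i)) * (θ (a + a₀) : Ce Q → ℂ) g =
        Cyh.ee (a₀ * i) * ∑ a, Cyh.ee (-(a * i)) * (θ a : Ce Q → ℂ) g := by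
      rw [← Equiv.sum_comp (Equiv.addRight a₀) (fun a => Cyh.ee (-(a * i)) * (θ a : Ce Q → ℂ) g), Finset.mul_sum]
      refine Finset.sum_congr rfl fun a _ => ?_
      rw [Equiv.coe_addRight, ← mul_assoc, ← Cyh.ee_add]
      congr 2; ring
    rw [h1, h2]; ring
  · intro t ht a c c' hcc
    obtain ⟨β, hβ⟩ := heqv t ht
    have hfix : (ex φ t : ZMod q) * a₀ + β = a₀ := by
      apply hinj
      apply Subtype.ext
      funext d
      have hN : Nf Q (ep M (Ce Q) b) = Nf P E ⊔ Ce Q := Nf_eq hM hP htop hc hle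
      have hsQ : (t : G) ∈ Nf Q (ep M (Ce Q) b) := by
        rw [hN]; exact Subgroup.mem_sup_left ht
      have hd := (Subgroup.mem_normalizer_iff.1 (norm_le_norm_Ce Q (mem_Nf.1 hsQ).1) d).1 d.2
      have e1 := hβ a₀ d ⟨_, hd⟩ rfl
      have e2 := ha₀ t ht d ⟨_, hd⟩ rfl
      rw [← e1, e2]
    show (θ (a + a₀) : Ce Q → ℂ) c' = (θ ((ex φ t : ZMod q) * a + a₀) : Ce Q → ℂ) c
    rw [hβ (a + a₀) c c' hcc]
    have h5 : (ex φ t : ZMod q) * (a + a₀) + β = (ex φ t : ZMod q) * a + a₀ := by linear_combination hfix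
    rw [h5]

end fam

end Cfsg.Agent.H25.Cyy
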