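import Mathlib
import Cfsg.Agent.H25_Cyy

/-!
H25_Cyz: generalized decomposition numbers of a block with cyclic defect group.
-/

set_option autoImplicit false
set_option linter.unusedSectionVars false

open scoped ComplexConjugate

namespace Cfsg.Agent.H25.Cyz

open Cfsg Cfsg.Agent.H3 Cfsg.Agent.H3.CharIrr Cfsg.Agent.H3.CharComplete Cfsg.Agent.H3.CharBasic
  Cfsg.Agent.H10.BlockLoc Cfsg.Agent.H10.BlockAlg Cfsg.Agent.H10.BlockIdem Cfsg.Agent.H10.Char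
  Cfsg.Agent.H10.BlockSMT Cfsg.Agent.H10.BlockSMT2 Cfsg.Agent.H10.BlockTrace Cfsg.Agent.H10.BlockDefect
  Cfsg.Agent.H10.BlockMain Cfsg.Agent.H10.BlockHZ
  Cfsg.Agent.H10.PPart Cfsg.Agent.H25.IndCong Cfsg.Agent.H25.Red Cfsg.Agent.H25.KG Cfsg.Agent.H25.Up
  Cfsg.Agent.H25.BPTr Cfsg.Agent.H25.BPMain Cfsg.Agent.H25.BPDef Cfsg.Agent.H25.Fus Cfsg.Agent.H25.Nilp
  Cfsg.Agent.H25.NilpAb Cfsg.Agent.H25.Rel Cfsg.Agent.H25.FMT Cfsg.Agent.H25.Sub Cfsg.Agent.H25.Sub2 Cfsg.Agent.H25.Cyk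
  Cfsg.Agent.H25.Cys Cfsg.Agent.H25.Cyn Cfsg.Agent.H25.Cyi Cfsg.Agent.H25.Cyx Cfsg.Agent.H25.Cyy

section gen

variable {G : Type*} [Group G] [Fintype G]

/-- column orthogonality for arbitrary functions -/
theorem ker_gen [Fintype (IrrCharacter G)] (F F' : G → ℂ) :
    ∑ χ : IrrCharacter G, (∑ y : G, (χ : G → ℂ) y * conj (F y)) * conj (∑ y : G, (χ : G → ℂ) y * conj (F' y)) =
      ∑ t : G, ∑ y : G, conj (F y) * F' (t * y * t⁻¹) := by
  classical
  have h1 : ∀ χ : IrrCharacter G, (∑ y : G, (χ : G → ℂ) y * conj (F y)) * conj (∑ y : G, (χ : G → ℂ) y * conj (F' y)) =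
      ∑ y : G, ∑ y' : G, (conj (F y) * F' y') * ((χ : G → ℂ) y * conj ((χ : G → ℂ) y')) := by
    intro χ
    rw [map_sum, Finset.sum_mul_sum]
    refine Finset.sum_congr rfl fun y _ => Finset.sum_congr rfl fun y' _ => ?_
    rw [map_mul, Complex.conj_conj]; ring
  rw [Finset.sum_congr rfl fun χ _ => h1 χ, Finset.sum_comm, Finset.sum_comm (s := Finset.univ) (t := Finset.univ)
    (f := fun t y => conj (F y) * F' (t * y * t⁻¹))]
  refine Finset.sum_congr rfl fun y _ => ?_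
  rw [Finset.sum_comm]
  have h2 : ∀ y' : G, ∑ χ : IrrCharacter G, (conj (F y) * F' y') * ((χ : G → ℂ) y * conj ((χ : G → ℂ) y')) =
      ∑ t : G, if t * y * t⁻¹ = y' then conj (F y) * F' y' else 0 := by
    intro y'
    rw [← Finset.mul_sum, orth2_count, Finset.mul_sum]
    refine Finset.sum_congr rfl fun t _ => ?_
    split_ifs <;> simp
  rw [Finset.sum_congr rfl fun y' _ => h2 y', Finset.sum_comm]
  refine Finset.sum_congr rfl fun t _ => ?_
  rw [Finset.sum_ite_eq Finset.univ (t * y * t⁻¹), if_pos (Finset.mem_univ _)]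

theorem nm_of_conj {u t : G} (h : t * u * t⁻¹ ∈ Subgroup.zpowers u) : t ∈ Nm (Subgroup.zpowers u) := by
  rw [mem_normalizer_iff_cs]
  have h1 : cs t (Subgroup.zpowers u) = Subgroup.zpowers (t * u * t⁻¹) := AbSec.cs_zp t u
  rw [h1]
  refine Subgroup.eq_of_le_of_card_ge (Subgroup.zpowers_le.2 h) ?_
  rw [Nat.card_zpowers, Nat.card_zpowers, orderOf_conj]

end gen

/-- the configuration of a block with cyclic defect group -/
structure Cfg {G : Type*} [Group G] [Fintype G] (p : ℕ) [Fact p.Prime] (M : Ideal AlgInt) [M.IsMaximal] [CharP (KM M) p]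
    (B : Set (IrrCharacter G)) (P : Subgroup G) (E : MonoidAlgebra (KM M) G) (u : G)
    (b : Set (IrrCharacter (Ce (Subgroup.zpowers u)))) {q : ℕ} [NeZero q] (φ : Multiplicative (ZMod q) ≃* P)
    (θ : ZMod q → IrrCharacter (Ce (Subgroup.zpowers u))) : Prop where
  hM : IsPModular p M
  hB : IsPBlock M B
  hP : BP p (epG M B) P E
  htop : KG.Top p P E
  hc : IsCyclic P
  huP : u ∈ P
  huo : orderOf u = p
  hb : IsPBlock M b
  hnil : IsNilpotentBlock p M b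
  hle : LE p (Subgroup.zpowers u) (ep M (Ce (Subgroup.zpowers u)) b) P E
  hf : Fam3 p M b (Nf P E) φ θ

section cfg

variable {p : ℕ} {M : Ideal AlgInt} {G : Type*} [Group G] [Fintype G] [hMax : M.IsMaximal]
  [hp : Fact p.Prime] [hch : CharP (KM M) p] {P : Subgroup G} {E : MonoidAlgebra (KM M) G} {u : G}
  {B : Set (IrrCharacter G)} {b : Set (IrrCharacter (Ce (Subgroup.zpowers u)))} {q : ℕ} [NeZero q]
  {φ : Multiplicative (ZMod q) ≃* P} {θ : ZMod q → IrrCharacter (Ce (Subgroup.zpowers u))}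

/-- the multiplicities -/
noncomputable def mu (θ : ZMod q → IrrCharacter (Ce (Subgroup.zpowers u))) (χ : IrrCharacter G) (a : ZMod q) : ℕ :=
  letI : Fintype (Ce (Subgroup.zpowers u)) := Fintype.ofFinite _
  aa (Ce (Subgroup.zpowers u)) χ (θ a)

open Classical in
/-- the Fourier transform of the family -/
noncomputable def Fx (θ : ZMod q → IrrCharacter (Ce (Subgroup.zpowers u))) (i : ZMod q) (y : G) : ℂ :=
  if h : y ∈ Ce (Subgroup.zpowers u) then ∑ a, Cyh.ee (-(a * i)) * (θ a : Ce (Subgroup.zpowers u) → ℂ) ⟨y, h⟩ else 0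

theorem Fx_mem (i : ZMod q) (y : Ce (Subgroup.zpowers u)) :
    Fx θ i (y : G) = ∑ a, Cyh.ee (-(a * i)) * (θ a : Ce (Subgroup.zpowers u) → ℂ) y := dif_pos y.2

theorem Fx_notMem (i : ZMod q) {y : G} (hy : y ∉ Ce (Subgroup.zpowers u)) : Fx θ i y = 0 := dif_neg hy

theorem sumCe [Fintype (Ce (Subgroup.zpowers u))] (f : G → ℂ) (hf : ∀ y, f y ≠ 0 → y ∈ Ce (Subgroup.zpowers u)) :
    ∑ y : G, f y = ∑ y : Ce (Subgroup.zpowers u), f (y : G) := by
  symm
  refine Finset.sum_bij_ne_zero (fun y _ _ => (y : G)) (fun _ _ _ => Finset.mem_univ _)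
    (fun a _ _ b _ _ h => Subtype.ext h) ?_ (fun _ _ _ => rfl)
  intro y _ hy
  exact ⟨⟨y, hf y hy⟩, Finset.mem_univ _, hy, rfl⟩

theorem cC : (Nat.card (Ce (Subgroup.zpowers u)) : ℂ) ≠ 0 := Nat.cast_ne_zero.2 Nat.card_pos.ne'

theorem dd_F (χ : IrrCharacter G) (i : ZMod q) :
    Cyh.dd (mu θ) χ i = (Nat.card (Ce (Subgroup.zpowers u)) : ℂ)⁻¹ * ∑ y : G, (χ : G → ℂ) y * conj (Fx θ i y) := by
  classical
  letI : Fintype (Ce (Subgroup.zpowers u)) := Fintype.ofFinite _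
  have h1 : ∀ a, (mu θ χ a : ℂ) = (Nat.card (Ce (Subgroup.zpowers u)) : ℂ)⁻¹ *
      ∑ y : Ce (Subgroup.zpowers u), (χ : G → ℂ) y * conj ((θ a : Ce (Subgroup.zpowers u) → ℂ) y) := by
    intro a
    have h2 := aa_spec (Ce (Subgroup.zpowers u)) χ (θ a)
    rw [classInner] at h2
    unfold mu
    rw [← h2]
  unfold Cyh.dd
  rw [Finset.sum_congr rfl fun a _ => by rw [h1 a]]
  rw [sumCe (u := u) (fun y => (χ : G → ℂ) y * conj (Fx θ i y)) (fun y hy => by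
    by_contra hc
    exact hy (by rw [Fx_notMem i hc, map_zero, mul_zero]))]
  simp only [Fx_mem, map_sum, map_mul, Finset.mul_sum, Finset.sum_mul, Cyh.ee_conj, neg_neg]
  rw [Finset.sum_comm]
  refine Finset.sum_congr rfl fun y _ => Finset.sum_congr rfl fun a _ => by ring

theorem Fx_class (i : ZMod q) {c : G} (hc : c ∈ Ce (Subgroup.zpowers u)) (y : G) :
    Fx θ i (c * y * c⁻¹) = Fx θ i y := by
  haveI : Fintype (Ce (Subgroup.zpowers u)) := Fintype.ofFinite _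
  by_cases hy : y ∈ Ce (Subgroup.zpowers u)
  · have h1 : c * y * c⁻¹ = ((⟨c, hc⟩ * ⟨y, hy⟩ * ⟨c, hc⟩⁻¹ : Ce (Subgroup.zpowers u)) : G) := rfl
    rw [h1, Fx_mem, Fx_mem i ⟨y, hy⟩]
    refine Finset.sum_congr rfl fun a _ => ?_
    rw [IsIrr.isClass (θ a).2]
  · rw [Fx_notMem i hy, Fx_notMem]
    intro h
    apply hy
    have : y = c⁻¹ * (c * y * c⁻¹) * c := by group
    rw [this]
    exact mul_mem (mul_mem (inv_mem hc) h) hc

/-- the shape of elements in the support -/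
theorem Fx_supp (h : Cfg p M B P E u b φ θ) {i : ZMod q} {y : G} (hy : Fx θ i y ≠ 0) :
    y ∈ Ce (Subgroup.zpowers u) ∧ ∃ x z : G, ∃ c ∈ Ce (Subgroup.zpowers u), x = c * wp φ i * c⁻¹ ∧ Commute x z ∧
      ¬ p ∣ orderOf z ∧ y = x * z ∧ ∃ k : ℕ, orderOf x = p ^ k := by
  have hyC : y ∈ Ce (Subgroup.zpowers u) := by
    by_contra hc
    exact hy (Fx_notMem i hc)
  refine ⟨hyC, ?_⟩
  rw [show y = ((⟨y, hyC⟩ : Ce (Subgroup.zpowers u)) : G) from rfl, Fx_mem] at hy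
  obtain ⟨c, z, h1, h2, h3⟩ := h.hf.supp i _ hy
  refine ⟨c * wp φ i * (c : G)⁻¹, z, c, c.2, rfl, h2, ?_, h3, ?_⟩
  · rw [Subgroup.orderOf_coe]; exact h1
  · rw [orderOf_conj]
    obtain ⟨k, hk⟩ := IsPGroup.iff_orderOf.1 h.hP.pg ⟨wp φ i, wp_mem φ i⟩
    rw [Subgroup.orderOf_mk] at hk
    exact ⟨k, hk⟩

omit [hMax : M.IsMaximal] [hch : CharP (KM M) p] in
/-- the subgroup of order p lies in every nontrivial subgroup -/
theorem u_mem_zp (hPp : IsPGroup p P) (hc : IsCyclic P) (huP : u ∈ P) (huo : orderOf u = p) {x : G} (hx : x ∈ P)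
    (hx1 : x ≠ 1) : u ∈ Subgroup.zpowers x := by
  obtain ⟨k, hk⟩ := IsPGroup.iff_orderOf.1 hPp ⟨x, hx⟩
  rw [Subgroup.orderOf_mk] at hk
  have hk0 : k ≠ 0 := by
    rintro rfl
    rw [pow_zero, orderOf_eq_one_iff] at hk
    exact hx1 hk
  obtain ⟨m, rfl⟩ := Nat.exists_eq_succ_of_ne_zero hk0
  have h1 : orderOf (x ^ p ^ m) = p := by
    rw [orderOf_pow_of_dvd (pow_pos hp.out.pos m).ne' (by rw [hk]; exact pow_dvd_pow p (Nat.le_succ m)), hk,
      Nat.succ_eq_add_one, pow_succ, Nat.mul_div_cancel_left _ (pow_pos hp.out.pos m)]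
  have h2 := Cyg.zp_mem_of_order hc (Subgroup.pow_mem P hx (p ^ m)) huP h1 huo
  exact (Subgroup.zpowers_le.2 (Subgroup.npow_mem_zpowers x (p ^ m))) h2

theorem u_mem_x (h : Cfg p M B P E u b φ θ) {i : ZMod q} (hi : i ≠ 0) {c : G} (hcC : c ∈ Ce (Subgroup.zpowers u)) :
    u ∈ Subgroup.zpowers (c * wp φ i * c⁻¹) := by
  have h1 : wp φ i ≠ 1 := fun h0 => hi (wp_inj φ (by rw [h0, wp_zero]))
  obtain ⟨k, hk⟩ := u_mem_zp h.hP.pg h.hc h.huP h.huo (wp_mem φ i) h1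
  refine ⟨k, ?_⟩
  show (c * wp φ i * c⁻¹) ^ k = u
  rw [conj_zpow]
  have hk' : wp φ i ^ k = u := hk
  rw [hk']
  have h2 := Subgroup.mem_centralizer_iff.1 hcC u (Subgroup.mem_zpowers u)
  rw [← h2]; group

theorem u_mem (h : Cfg p M B P E u b φ θ) {i : ZMod q} (hi : i ≠ 0) {y : G} (hy : Fx θ i y ≠ 0) :
    u ∈ Subgroup.zpowers y := by
  obtain ⟨-, x, z, c, hcC, hx, hxz, hz, hy', hxo⟩ := Fx_supp h hy
  have h1 : u ∈ Subgroup.zpowers x := by rw [hx]; exact u_mem_x h hi hcC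
  have h2 := ppart_mem_zpowers' (p := p) (g := y) (x := x) ⟨z, hy'.symm, hxz, hxo, hz⟩
  exact (Subgroup.zpowers_le.2 h2) h1

theorem dvd_order (h : Cfg p M B P E u b φ θ) {i : ZMod q} (hi : i ≠ 0) {y : G} (hy : Fx θ i y ≠ 0) :
    p ∣ orderOf y := by
  rw [← h.huo, ← Nat.card_zpowers, ← Nat.card_zpowers]
  exact Subgroup.card_dvd_of_le (Subgroup.zpowers_le.2 (u_mem h hi hy))

/-- only elements of the normalizer contribute -/
theorem nm_of (h : Cfg p M B P E u b φ θ) {i j : ZMod q} (hi : i ≠ 0) (hj : j ≠ 0) {t y : G} (h1 : Fx θ i y ≠ 0)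
    (h2 : Fx θ j (t * y * t⁻¹) ≠ 0) : t ∈ Nm (Subgroup.zpowers u) := by
  have h3 := u_mem h hi h1
  have h4 := u_mem h hj h2
  have h5 : t * u * t⁻¹ ∈ Subgroup.zpowers (t * y * t⁻¹) := by
    obtain ⟨k, hk⟩ := h3
    refine ⟨k, ?_⟩
    show (t * y * t⁻¹) ^ k = _
    have hk' : y ^ k = u := hk
    rw [conj_zpow, hk']
  have h6 : t * u * t⁻¹ ∈ Subgroup.zpowers u :=
    Cyg.zp_mem_of_order (P := Subgroup.zpowers (t * y * t⁻¹)) inferInstance h4 h5 h.huo (by rw [orderOf_conj]; exact h.huo)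
  exact nm_of_conj h6

end cfg

section kern

variable {p : ℕ} {M : Ideal AlgInt} {G : Type*} [Group G] [Fintype G] [hMax : M.IsMaximal]
  [hp : Fact p.Prime] [hch : CharP (KM M) p] {P : Subgroup G} {E : MonoidAlgebra (KM M) G} {u : G}
  {B : Set (IrrCharacter G)} {b : Set (IrrCharacter (Ce (Subgroup.zpowers u)))} {q : ℕ} [NeZero q]
  {φ : Multiplicative (ZMod q) ≃* P} {θ : ZMod q → IrrCharacter (Ce (Subgroup.zpowers u))}

/-- the sum over an element of the normalizer -/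
noncomputable def SS (θ : ZMod q → IrrCharacter (Ce (Subgroup.zpowers u))) (i j : ZMod q) (t : G) : ℂ :=
  ∑ y : G, conj (Fx θ i y) * Fx θ j (t * y * t⁻¹)

theorem S_eq {t : G} (hK : Ce (Subgroup.zpowers u) = cs t (Ce (Subgroup.zpowers u)))
    [Fintype (Ce (Subgroup.zpowers u))] (i j : ZMod q) :
    SS θ i j t = ∑ a, ∑ c, (Cyh.ee (a * i) * Cyh.ee (-(c * j))) * ((Nat.card (Ce (Subgroup.zpowers u)) : ℂ) *
      classInner ((H10.BlockEFM.tr (cI t hK) (θ c) : IrrCharacter (Ce (Subgroup.zpowers u))) :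
        Ce (Subgroup.zpowers u) → ℂ) (θ a : Ce (Subgroup.zpowers u) → ℂ)) := by
  unfold SS
  rw [sumCe (u := u) (fun y => conj (Fx θ i y) * Fx θ j (t * y * t⁻¹)) (fun y hy => by
    by_contra hc
    exact hy (by rw [Fx_notMem i hc, map_zero, zero_mul]))]
  have h1 : ∀ y : Ce (Subgroup.zpowers u), conj (Fx θ i (y : G)) * Fx θ j (t * y * t⁻¹) =
      ∑ a, ∑ c, (Cyh.ee (a * i) * Cyh.ee (-(c * j))) * (((H10.BlockEFM.tr (cI t hK) (θ c) :
        IrrCharacter (Ce (Subgroup.zpowers u))) : Ce (Subgroup.zpowers u) → ℂ) y *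
        conj ((θ a : Ce (Subgroup.zpowers u) → ℂ) y)) := by
    intro y
    have h2 : t * (y : G) * t⁻¹ = ((cI t hK y : Ce (Subgroup.zpowers u)) : G) := rfl
    rw [h2, Fx_mem, Fx_mem, map_sum, Finset.sum_mul_sum]
    refine Finset.sum_congr rfl fun a _ => Finset.sum_congr rfl fun c _ => ?_
    rw [map_mul, Cyh.ee_conj, neg_neg, H10.BlockEFM.tr_apply]; ring
  rw [Finset.sum_congr rfl fun y _ => h1 y, Finset.sum_comm]
  refine Finset.sum_congr rfl fun a _ => ?_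
  rw [Finset.sum_comm]
  refine Finset.sum_congr rfl fun c _ => ?_
  rw [← Finset.mul_sum, classInner, ← mul_assoc (Nat.card _ : ℂ), mul_inv_cancel₀ cC, one_mul]

theorem S_out (h : Cfg p M B P E u b φ θ) {t : G} (ht : t ∈ Nm (Subgroup.zpowers u))
    (ht' : t ∉ Nf (Subgroup.zpowers u) (ep M (Ce (Subgroup.zpowers u)) b)) (i j : ZMod q) : SS θ i j t = 0 := by
  classical
  haveI : Fintype (Ce (Subgroup.zpowers u)) := Fintype.ofFinite _
  have hK : Ce (Subgroup.zpowers u) = cs t (Ce (Subgroup.zpowers u)) :=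
    (mem_normalizer_iff_cs.1 (norm_le_norm_Ce _ ht)).symm
  rw [S_eq hK]
  refine Finset.sum_eq_zero fun a _ => Finset.sum_eq_zero fun c _ => ?_
  rw [ci_irr_ne (H10.BlockEFM.tr (cI t hK) (θ c)).2 (θ a).2, mul_zero, mul_zero]
  intro heq
  apply ht'
  rw [mem_Nf]
  refine ⟨ht, ?_⟩
  have h1 : H10.BlockEFM.tr (cI t hK) (θ c) = θ a := Subtype.ext heq
  have h2 : θ c ∈ tB (cI t hK) b := by
    rw [mem_tB, h1]; exact h.hf.mem a
  have h3 := block_eq_of_mem (isPBlock_tB (cI t hK) h.hb) h.hb h2 (h.hf.mem c)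
  rw [← ep_conj t hK, h3]

theorem S_in (h : Cfg p M B P E u b φ θ) (t : Nm P) (ht : (t : G) ∈ Nf P E) (i j : ZMod q) :
    SS θ i j t = (Nat.card (Ce (Subgroup.zpowers u)) : ℂ) * (if j = (ex φ t : ZMod q) * i then (q : ℂ) else 0) := by
  classical
  haveI : Fintype (Ce (Subgroup.zpowers u)) := Fintype.ofFinite _
  have hN : Nf (Subgroup.zpowers u) (ep M (Ce (Subgroup.zpowers u)) b) = Nf P E ⊔ Ce (Subgroup.zpowers u) :=
    Nf_eq h.hM h.hP h.htop h.hc h.hle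
  have htQ : (t : G) ∈ Nf (Subgroup.zpowers u) (ep M (Ce (Subgroup.zpowers u)) b) := by
    rw [hN]; exact Subgroup.mem_sup_left ht
  have hK : Ce (Subgroup.zpowers u) = cs (t : G) (Ce (Subgroup.zpowers u)) :=
    (mem_normalizer_iff_cs.1 (norm_le_norm_Ce _ (mem_Nf.1 htQ).1)).symm
  rw [S_eq hK]
  have h1 : ∀ c, H10.BlockEFM.tr (cI (t : G) hK) (θ c) = θ ((ex φ t : ZMod q) * c) := by
    intro c
    apply Subtype.ext
    funext d
    rw [H10.BlockEFM.tr_apply]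
    exact h.hf.eqv t ht c d _ rfl
  rw [Finset.sum_comm]
  have h2 : ∀ c, ∑ a, (Cyh.ee (a * i) * Cyh.ee (-(c * j))) * ((Nat.card (Ce (Subgroup.zpowers u)) : ℂ) *
      classInner ((H10.BlockEFM.tr (cI (t : G) hK) (θ c) : IrrCharacter (Ce (Subgroup.zpowers u))) :
        Ce (Subgroup.zpowers u) → ℂ) (θ a : Ce (Subgroup.zpowers u) → ℂ)) =
      (Nat.card (Ce (Subgroup.zpowers u)) : ℂ) * Cyh.ee (((ex φ t : ZMod q) * i - j) * c) := by
    intro c
    rw [h1, Finset.sum_eq_single ((ex φ t : ZMod q) * c)]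
    · rw [ci_irr_self (θ _).2, mul_one, ← Cyh.ee_add, mul_comm]
      congr 2; ring
    · intro a _ hne
      rw [ci_irr_ne (θ _).2 (θ a).2, mul_zero, mul_zero]
      intro heq
      exact hne (h.hf.inj (Subtype.ext heq)).symm
    · intro hh; exact absurd (Finset.mem_univ _) hh
  rw [Finset.sum_congr rfl fun c _ => h2 c, ← Finset.mul_sum, Cyh.sum_ee]
  congr 1
  by_cases hj : j = (ex φ t : ZMod q) * i
  · rw [if_pos hj, if_pos (sub_eq_zero.2 hj.symm)]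
  · rw [if_neg hj, if_neg (fun hh => hj (sub_eq_zero.1 hh).symm)]

theorem S_mul {c : G} (hc : c ∈ Ce (Subgroup.zpowers u)) (t : G) (i j : ZMod q) : SS θ i j (t * c) = SS θ i j t := by
  unfold SS
  refine Fintype.sum_equiv (MulAut.conj c).toEquiv _ _ fun y => ?_
  have e1 : (MulAut.conj c).toEquiv y = c * y * c⁻¹ := rfl
  rw [e1, Fx_class i hc]
  congr 2
  group

theorem dec (h : Cfg p M B P E u b φ θ) {t : G} (ht : t ∈ Nf (Subgroup.zpowers u) (ep M (Ce (Subgroup.zpowers u)) b)) :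
    ∃ n ∈ Nf P E, n⁻¹ * t ∈ Ce (Subgroup.zpowers u) :=
  ab_control h.hM h.hP h.htop (cyc_comm h.hc) (FR.of_stab (mem_Nf.1 ht).1 h.hle (mem_Nf.1 ht).2)

/-- nonzero contributions come from the stabilizer -/
theorem S_ne (h : Cfg p M B P E u b φ θ) {i j : ZMod q} (hi : i ≠ 0) (hj : j ≠ 0) {t : G} (ht : SS θ i j t ≠ 0) :
    ∃ n : Nm P, (n : G) ∈ Nf P E ∧ (n : G)⁻¹ * t ∈ Ce (Subgroup.zpowers u) ∧ j = (ex φ n : ZMod q) * i ∧
      SS θ i j t = (Nat.card (Ce (Subgroup.zpowers u)) : ℂ) * q := by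
  have h1 : t ∈ Nm (Subgroup.zpowers u) := by
    unfold SS at ht
    obtain ⟨y, -, hy⟩ := Finset.exists_ne_zero_of_sum_ne_zero ht
    refine nm_of h hi hj (t := t) (y := y) (fun h0 => hy (by rw [h0, map_zero, zero_mul])) (right_ne_zero_of_mul hy)
  have h2 : t ∈ Nf (Subgroup.zpowers u) (ep M (Ce (Subgroup.zpowers u)) b) := by
    by_contra hc
    exact ht (S_out h h1 hc i j)
  obtain ⟨n, hn, hnt⟩ := dec h h2
  have h3 : t = n * (n⁻¹ * t) := by group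
  have h4 : SS θ i j t = SS θ i j n := by
    rw [h3, S_mul hnt]
  have h5 := S_in h ⟨n, (mem_Nf.1 hn).1⟩ hn i j
  have h6 : j = (ex φ ⟨n, (mem_Nf.1 hn).1⟩ : ZMod q) * i := by
    by_contra hc
    apply ht
    rw [h4]
    rw [if_neg hc, mul_zero] at h5
    exact h5
  refine ⟨⟨n, (mem_Nf.1 hn).1⟩, hn, hnt, h6, ?_⟩
  rw [h4]
  rw [if_pos h6] at h5
  exact h5

/-- the action is free -/
theorem free (h : Cfg p M B P E u b φ θ) : ∀ g ∈ HT φ (Nf P E), ∀ i : ZMod q, i ≠ 0 → (g : ZMod q) * i = i → g = 1 := by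
  intro g hg i hi heq
  obtain ⟨t, ht, htT, rfl⟩ := mem_HT.1 hg
  have h1 : t ∈ Ce P := by
    refine free_cyc h.hM h.hP h.htop h.hc htT (wp_mem φ i) (fun h0 => hi (wp_inj φ (by rw [h0, wp_zero]))) ?_
    have := ex_spec φ ⟨t, ht⟩ i
    rw [heq] at this
    exact this
  have h2 : (⟨t, ht⟩ : Nm P) ∈ (ex φ).ker := by
    rw [ker_ex, Subgroup.mem_subgroupOf]; exact h1
  exact h2

/-- orthogonality of the decomposition numbers -/
theorem kernel_all [Fintype (IrrCharacter G)] (h : Cfg p M B P E u b φ θ) (i j : ZMod q) (hi : i ≠ 0) (hj : j ≠ 0) :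
    ((∃ g ∈ HT φ (Nf P E), j = (g : ZMod q) * i) →
      ∑ χ : IrrCharacter G, Cyh.dd (mu θ) χ i * conj (Cyh.dd (mu θ) χ j) = (q : ℂ)) ∧
    ((¬ ∃ g ∈ HT φ (Nf P E), j = (g : ZMod q) * i) →
      ∑ χ : IrrCharacter G, Cyh.dd (mu θ) χ i * conj (Cyh.dd (mu θ) χ j) = 0) := by
  classical
  have hC0 := cC (u := u)
  have h1 : ∑ χ : IrrCharacter G, Cyh.dd (mu θ) χ i * conj (Cyh.dd (mu θ) χ j) =
      ((Nat.card (Ce (Subgroup.zpowers u)) : ℂ)⁻¹ * (Nat.card (Ce (Subgroup.zpowers u)) : ℂ)⁻¹) *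
        ∑ t : G, SS θ i j t := by
    unfold SS
    rw [← ker_gen, Finset.mul_sum]
    refine Finset.sum_congr rfl fun χ _ => ?_
    rw [dd_F, dd_F, map_mul, map_inv₀, map_natCast]
    ring
  rw [h1]
  constructor
  · rintro ⟨g, hg, hj'⟩
    obtain ⟨t0, ht0, ht0T, rfl⟩ := mem_HT.1 hg
    have h2 : ∀ t : G, SS θ i j t = if t0⁻¹ * t ∈ Ce (Subgroup.zpowers u) then
        (Nat.card (Ce (Subgroup.zpowers u)) : ℂ) * q else 0 := by
      intro t
      by_cases ht : t0⁻¹ * t ∈ Ce (Subgroup.zpowers u)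
      · rw [if_pos ht]
        have h3 : t = t0 * (t0⁻¹ * t) := by group
        have h4 := S_in h ⟨t0, ht0⟩ ht0T i j
        rw [if_pos hj'] at h4
        rw [h3, S_mul ht]
        exact h4
      · rw [if_neg ht]
        by_contra hne
        obtain ⟨n, hn, hnt, hjn, -⟩ := S_ne h hi hj hne
        apply ht
        have h5 : (ex φ ⟨t0, ht0⟩)⁻¹ * ex φ n = 1 := by
          refine free h _ (mul_mem (inv_mem hg) (mem_HT.2 ⟨n, n.2, hn, rfl⟩)) i hi ?_
          rw [Units.val_mul, mul_assoc, ← hjn, hj', ← mul_assoc, Units.inv_mul, one_mul]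
        have h6 : (⟨t0, ht0⟩⁻¹ * n : Nm P) ∈ (ex φ).ker := by
          rw [MonoidHom.mem_ker, map_mul, map_inv]; exact h5
        rw [ker_ex, Subgroup.mem_subgroupOf] at h6
        have h7 : t0⁻¹ * (n : G) ∈ Ce (Subgroup.zpowers u) := (Ce_anti h.hle.le) h6
        have h8 : t0⁻¹ * t = (t0⁻¹ * (n : G)) * ((n : G)⁻¹ * t) := by group
        rw [h8]
        exact mul_mem h7 hnt
    rw [Finset.sum_congr rfl fun t _ => h2 t]
    have h3 : ∑ t : G, (if t0⁻¹ * t ∈ Ce (Subgroup.zpowers u) then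
        (Nat.card (Ce (Subgroup.zpowers u)) : ℂ) * q else 0) =
        ∑ t : G, (if t ∈ Ce (Subgroup.zpowers u) then (Nat.card (Ce (Subgroup.zpowers u)) : ℂ) * q else 0) :=
      Fintype.sum_equiv (Equiv.mulLeft t0⁻¹) _ _ fun t => rfl
    rw [h3, ← Finset.sum_filter, Finset.sum_const, nsmul_eq_mul]
    have h4 : (Finset.univ.filter fun t : G => t ∈ Ce (Subgroup.zpowers u)).card = Nat.card (Ce (Subgroup.zpowers u)) := by
      rw [Nat.card_eq_fintype_card, Fintype.card_subtype]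
    rw [h4]
    field_simp
  · intro hne
    rw [Finset.sum_eq_zero, mul_zero]
    intro t _
    by_contra hne'
    obtain ⟨n, hn, hnt, hjn, -⟩ := S_ne h hi hj hne'
    exact hne ⟨ex φ n, mem_HT.2 ⟨n, n.2, hn, rfl⟩, hjn⟩

/-- invariance -/
theorem dd_inv (h : Cfg p M B P E u b φ θ) (χ : IrrCharacter G) {g : (ZMod q)ˣ} (hg : g ∈ HT φ (Nf P E)) (i : ZMod q) :
    Cyh.dd (mu θ) χ ((g : ZMod q) * i) = Cyh.dd (mu θ) χ i := by
  classical
  obtain ⟨t, ht, htT, rfl⟩ := mem_HT.1 hg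
  letI : Fintype (Ce (Subgroup.zpowers u)) := Fintype.ofFinite _
  have hN : Nf (Subgroup.zpowers u) (ep M (Ce (Subgroup.zpowers u)) b) = Nf P E ⊔ Ce (Subgroup.zpowers u) :=
    Nf_eq h.hM h.hP h.htop h.hc h.hle
  have htQ : t ∈ Nf (Subgroup.zpowers u) (ep M (Ce (Subgroup.zpowers u)) b) := by
    rw [hN]; exact Subgroup.mem_sup_left htT
  have hK : Ce (Subgroup.zpowers u) = cs t (Ce (Subgroup.zpowers u)) :=
    (mem_normalizer_iff_cs.1 (norm_le_norm_Ce _ (mem_Nf.1 htQ).1)).symm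
  have h1 : ∀ a, mu θ χ ((ex φ ⟨t, ht⟩ : ZMod q) * a) = mu θ χ a := by
    intro a
    have h2 := aa_spec (Ce (Subgroup.zpowers u)) χ (θ ((ex φ ⟨t, ht⟩ : ZMod q) * a))
    have h3 := aa_spec (Ce (Subgroup.zpowers u)) χ (θ a)
    have h4 : classInner (fun h : Ce (Subgroup.zpowers u) => (χ : G → ℂ) h)
        (θ ((ex φ ⟨t, ht⟩ : ZMod q) * a) : Ce (Subgroup.zpowers u) → ℂ) =
        classInner (fun h : Ce (Subgroup.zpowers u) => (χ : G → ℂ) h) (θ a : Ce (Subgroup.zpowers u) → ℂ) := by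
      rw [classInner, classInner]
      congr 1
      refine Fintype.sum_equiv (cI t hK).toEquiv _ _ fun y => ?_
      have e1 : (cI t hK).toEquiv y = cI t hK y := rfl
      rw [e1, h.hf.eqv ⟨t, ht⟩ htT a y (cI t hK y) rfl]
      congr 1
      show (χ : G → ℂ) (y : G) = (χ : G → ℂ) (t * y * t⁻¹)
      rw [IsIrr.isClass χ.2]
    have h5 : ((mu θ χ ((ex φ ⟨t, ht⟩ : ZMod q) * a) : ℕ) : ℂ) = ((mu θ χ a : ℕ) : ℂ) := by
      unfold mu
      rw [← h2, ← h3, h4]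
    exact_mod_cast h5
  unfold Cyh.dd
  symm
  refine Fintype.sum_equiv (Units.mulLeft (ex φ ⟨t, ht⟩)⁻¹) _ _ fun a => ?_
  rw [Units.mulLeft_apply]
  have h2 := h1 ((((ex φ ⟨t, ht⟩)⁻¹ : (ZMod q)ˣ) : ZMod q) * a)
  rw [← mul_assoc, Units.mul_inv, one_mul] at h2
  rw [← h2]
  congr 2
  calc a * i = ((ex φ ⟨t, ht⟩ : ZMod q) * (((ex φ ⟨t, ht⟩)⁻¹ : (ZMod q)ˣ) : ZMod q)) * (a * i) := by
        rw [Units.mul_inv, one_mul]
    _ = _ := by ring

end kern

end Cfsg.Agent.H25.Cyz
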