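import Mathlib
import Cfsg.Agent.H25_Cyz

/-!
H25_Cza: generalized decomposition numbers of a block with cyclic defect group, vanishing and nonvanishing.
-/

set_option autoImplicit false
set_option linter.unusedSectionVars false

open scoped ComplexConjugate

namespace Cfsg.Agent.H25.Cza

open Cfsg Cfsg.Agent.H3 Cfsg.Agent.H3.CharIrr Cfsg.Agent.H3.CharComplete Cfsg.Agent.H3.CharBasic
  Cfsg.Agent.H10.BlockLoc Cfsg.Agent.H10.BlockAlg Cfsg.Agent.H10.BlockIdem Cfsg.Agent.H10.Char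
  Cfsg.Agent.H10.BlockSMT Cfsg.Agent.H10.BlockSMT2 Cfsg.Agent.H10.BlockTrace Cfsg.Agent.H10.BlockDefect
  Cfsg.Agent.H10.BlockMain Cfsg.Agent.H10.BlockHZ Cfsg.Agent.H10.BlockOrth
  Cfsg.Agent.H10.PPart Cfsg.Agent.H25.IndCong Cfsg.Agent.H25.Red Cfsg.Agent.H25.KG Cfsg.Agent.H25.Up
  Cfsg.Agent.H25.BPTr Cfsg.Agent.H25.BPMain Cfsg.Agent.H25.BPDef Cfsg.Agent.H25.Fus Cfsg.Agent.H25.Nilp
  Cfsg.Agent.H25.NilpAb Cfsg.Agent.H25.Rel Cfsg.Agent.H25.FMT Cfsg.Agent.H25.Sub Cfsg.Agent.H25.Sub2 Cfsg.Agent.H25.Cyk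
  Cfsg.Agent.H25.Cys Cfsg.Agent.H25.Cyn Cfsg.Agent.H25.Cyi Cfsg.Agent.H25.Cyx Cfsg.Agent.H25.Cyy Cfsg.Agent.H25.Cyz

section out

variable {p : ℕ} {M : Ideal AlgInt} {G : Type*} [Group G] [Fintype G] [hMax : M.IsMaximal]
  [hp : Fact p.Prime] [hch : CharP (KM M) p] {P : Subgroup G} {E : MonoidAlgebra (KM M) G} {u : G}
  {B : Set (IrrCharacter G)} {b : Set (IrrCharacter (Ce (Subgroup.zpowers u)))} {q : ℕ} [NeZero q]
  {φ : Multiplicative (ZMod q) ≃* P} {θ : ZMod q → IrrCharacter (Ce (Subgroup.zpowers u))}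

theorem ind (h : Cfg p M B P E u b φ θ) : IsInducedBlock M (Ce (Subgroup.zpowers u)) b B := by
  have h1 := h.hP.down h.hle
  exact ((H25.BPInd.bpo_iff_induced h.hM).1 (bpo_iff.2 ⟨h.hB, h.hb, h1⟩)).2

theorem cen_u : Ce (Subgroup.zpowers u) = Subgroup.centralizer ({u} : Set G) := AbSec.Ce_zp u

theorem uC : u ∈ Ce (Subgroup.zpowers u) := by
  rw [cen_u, mem_Ce1]

/-- elements whose p-part lies over `u` -/
theorem part_le {g z : G} (hz : IsPPart p g z) (hu : u ∈ Subgroup.zpowers z) :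
    Subgroup.centralizer ({z} : Set G) ≤ Ce (Subgroup.zpowers u) := by
  intro x hx
  rw [cen_u, mem_Ce1]
  rw [mem_Ce1] at hx
  obtain ⟨k, hk⟩ := hu
  have hk' : z ^ k = u := hk
  rw [← hk']
  exact (Commute.zpow_right (show Commute x z from hx) k).eq

theorem part_u (h : Cfg p M B P E u b φ θ) {i : ZMod q} (hi : i ≠ 0) {y : G} (hy : Fx θ i y ≠ 0) {z : G}
    (hz : IsPPart p y z) : u ∈ Subgroup.zpowers z := by
  obtain ⟨-, x, w, c, hcC, hx, hxz, hw, hy', hxo⟩ := Fx_supp h hy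
  have h1 : x = z := ppart_unique (p := p) ⟨w, hy'.symm, hxz, hxo, hw⟩ hz
  rw [← h1, hx]
  exact u_mem_x h hi hcC

/-- the block component of the restriction -/
theorem bp_res [Fintype (Ce (Subgroup.zpowers u))] (b : Set (IrrCharacter (Ce (Subgroup.zpowers u)))) (χ : IrrCharacter G)
    (y : Ce (Subgroup.zpowers u)) :
    blockPart b (fun c : Ce (Subgroup.zpowers u) => (χ : G → ℂ) c) y =
      ∑ k : Ce (Subgroup.zpowers u), blockCoeff b k * (χ : G → ℂ) ((k : G) * (y : G)) := by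
  classical
  haveI : Fintype (IrrCharacter (Ce (Subgroup.zpowers u))) := Fintype.ofFinite _
  have hcl : IsClassFunction (Ce (Subgroup.zpowers u)) (fun c : Ce (Subgroup.zpowers u) => (χ : G → ℂ) c) := by
    intro x y
    exact IsIrr.isClass χ.2 _ _
  rw [blockPart_eq_lin b hcl y, lin_apply, ← Equiv.sum_comp (Equiv.mulRight y)]
  refine Finset.sum_congr rfl fun k _ => ?_
  rw [coeff_mul_single, Equiv.coe_mulRight, mul_inv_cancel_right, eB_coeff]
  rfl

/-- the block component reproduces the multiplicities -/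
theorem bp_inner [Fintype (Ce (Subgroup.zpowers u))] (h : Cfg p M B P E u b φ θ) (χ : IrrCharacter G) (a : ZMod q) :
    classInner (blockPart b (fun c : Ce (Subgroup.zpowers u) => (χ : G → ℂ) c)) (θ a : Ce (Subgroup.zpowers u) → ℂ) =
      (mu θ χ a : ℂ) := by
  classical
  haveI : Fintype (IrrCharacter (Ce (Subgroup.zpowers u))) := Fintype.ofFinite _
  have h1 := aa_spec (Ce (Subgroup.zpowers u)) χ (θ a)
  have h2 : (mu θ χ a : ℂ) = (aa (Ce (Subgroup.zpowers u)) χ (θ a) : ℂ) := by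
    unfold mu
    congr 1
    convert rfl
  rw [h2, ← h1]
  rw [classInner, classInner]
  congr 1
  have h3 : ∀ y : Ce (Subgroup.zpowers u), blockPart b (fun c : Ce (Subgroup.zpowers u) => (χ : G → ℂ) c) y *
      conj ((θ a : Ce (Subgroup.zpowers u) → ℂ) y) =
      ∑ x : Ce (Subgroup.zpowers u), (Nat.card (Ce (Subgroup.zpowers u)) : ℂ)⁻¹ * ((χ : G → ℂ) x * (KB b y x *
        conj ((θ a : Ce (Subgroup.zpowers u) → ℂ) y))) := by
    intro y
    rw [blockPart_KB, mul_assoc, Finset.sum_mul, Finset.mul_sum]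
    refine Finset.sum_congr rfl fun x _ => by ring
  rw [Finset.sum_congr rfl fun y _ => h3 y, Finset.sum_comm]
  refine Finset.sum_congr rfl fun x _ => ?_
  have h4 : ∑ y : Ce (Subgroup.zpowers u), (Nat.card (Ce (Subgroup.zpowers u)) : ℂ)⁻¹ * ((χ : G → ℂ) x * (KB b y x *
        conj ((θ a : Ce (Subgroup.zpowers u) → ℂ) y))) =
      (χ : G → ℂ) x * conj (blockPart b (θ a : Ce (Subgroup.zpowers u) → ℂ) x) := by
    rw [blockPart_KB, map_mul, map_inv₀, Complex.conj_natCast, map_sum, Finset.mul_sum, Finset.mul_sum]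
    refine Finset.sum_congr rfl fun y _ => ?_
    rw [map_mul, ← STl.KB_symm]; ring
  rw [h4, blockPart_irr, if_pos (h.hf.mem a)]

/-- the decomposition numbers through the block component -/
theorem dd_bp [Fintype (Ce (Subgroup.zpowers u))] (h : Cfg p M B P E u b φ θ) (χ : IrrCharacter G) (i : ZMod q) :
    Cyh.dd (mu θ) χ i = (Nat.card (Ce (Subgroup.zpowers u)) : ℂ)⁻¹ * ∑ y : Ce (Subgroup.zpowers u),
      blockPart b (fun c : Ce (Subgroup.zpowers u) => (χ : G → ℂ) c) y * conj (Fx θ i (y : G)) := by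
  unfold Cyh.dd
  rw [Finset.sum_congr rfl fun a _ => by rw [← bp_inner h χ a]]
  simp only [classInner, Fx_mem, map_sum, map_mul, Finset.mul_sum, Finset.sum_mul, Cyh.ee_conj, neg_neg]
  rw [Finset.sum_comm]
  refine Finset.sum_congr rfl fun y _ => Finset.sum_congr rfl fun a _ => by ring

/-- characters outside the block -/
theorem dd_out (h : Cfg p M B P E u b φ θ) {χ : IrrCharacter G} (hχ : χ ∉ B) {i : ZMod q} (hi : i ≠ 0) :
    Cyh.dd (mu θ) χ i = 0 := by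
  haveI : Fintype (Ce (Subgroup.zpowers u)) := Fintype.ofFinite _
  rw [dd_bp h, Finset.sum_eq_zero, mul_zero]
  intro y _
  by_cases hy : Fx θ i (y : G) = 0
  · rw [hy, map_zero, mul_zero]
  · rw [bp_res, smt_idem h.hM (Ce (Subgroup.zpowers u)) (ind h) y (fun z hz => part_le hz (part_u h hi hy hz)) hχ, zero_mul]

/-- the block component in terms of the family -/
theorem bp_sum [Fintype (Ce (Subgroup.zpowers u))] (h : Cfg p M B P E u b φ θ) (χ : IrrCharacter G)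
    (y : Ce (Subgroup.zpowers u)) :
    blockPart b (fun c : Ce (Subgroup.zpowers u) => (χ : G → ℂ) c) y =
      ∑ a, (mu θ χ a : ℂ) * (θ a : Ce (Subgroup.zpowers u) → ℂ) y := by
  classical
  haveI : Fintype (IrrCharacter (Ce (Subgroup.zpowers u))) := Fintype.ofFinite _
  unfold blockPart
  have e : (Fintype.ofFinite (Ce (Subgroup.zpowers u))) = (inferInstance : Fintype (Ce (Subgroup.zpowers u))) :=
    Subsingleton.elim _ _
  rw [e, finsum_mem_irr, ← Finset.sum_filter]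
  symm
  refine Finset.sum_bij (fun (a : ZMod q) _ => θ a) ?_ ?_ ?_ ?_
  · intro a _; exact Finset.mem_filter.2 ⟨Finset.mem_univ _, h.hf.mem a⟩
  · intro a _ a' _ h'; exact h.hf.inj h'
  · intro φ hφ
    obtain ⟨a, ha⟩ := h.hf.surj φ (Finset.mem_filter.1 hφ).2
    exact ⟨a, Finset.mem_univ _, ha⟩
  · intro a _
    rw [aa_spec]
    congr 2
    unfold mu
    convert rfl

theorem maj (h : Cfg p M B P E u b φ θ) : blockDefect p b = blockDefect p B := by
  haveI : Fintype (Ce (Subgroup.zpowers u)) := Fintype.ofFinite _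
  have hab := cyc_comm h.hc
  have hPC : P ≤ Ce (Subgroup.zpowers u) := le_Ce_ab hab h.hle.le
  have hD : IsDefectGroup p M b (P.subgroupOf (Ce (Subgroup.zpowers u))) := by
    rw [defectH_iff' h.hM h.hb hPC]
    exact dgh_ab h.hM h.hP h.htop hab h.hle
  have hPD : IsDefectGroup p M B P := (defectG_iff h.hM h.hB).2 (BPDef.Top.dgh h.htop h.hP)
  have h1 := card_defectGroup h.hM h.hb hD
  have h2 := card_defectGroup h.hM h.hB hPD
  rw [Nat.card_congr (Subgroup.subgroupOfEquivOfLe hPC).toEquiv, h2] at h1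
  exact Nat.pow_right_injective hp.out.two_le h1.symm

/-- the sum of the family vanishes on p-singular elements -/
theorem sum_sing (h : Cfg p M B P E u b φ θ) {y : Ce (Subgroup.zpowers u)} (hy : p ∣ orderOf y) :
    ∑ a, (θ a : Ce (Subgroup.zpowers u) → ℂ) y = 0 := by
  by_contra hne
  obtain ⟨c, z, h1, h2, h3⟩ := h.hf.supp 0 y (by
    simpa only [mul_zero, neg_zero, Cyh.ee_zero, one_mul] using hne)
  rw [wp_zero, mul_one, mul_inv_cancel, one_mul] at h3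
  have h4 : y = z := Subtype.ext h3
  rw [h4] at hy
  exact h1 hy

/-- characters of the block are seen by the decomposition numbers -/
theorem exists_dd_ne (h : Cfg p M B P E u b φ θ) {χ : IrrCharacter G} (hχ : χ ∈ B) :
    ∃ i : ZMod q, i ≠ 0 ∧ Cyh.dd (mu θ) χ i ≠ 0 := by
  classical
  haveI : Fintype (Ce (Subgroup.zpowers u)) := Fintype.ofFinite _
  haveI : Fintype (IrrCharacter (Ce (Subgroup.zpowers u))) := Fintype.ofFinite _
  by_contra hcon
  push Not at hcon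
  have hmu : ∀ a, (mu θ χ a : ℂ) = (q : ℂ)⁻¹ * Cyh.dd (mu θ) χ 0 := by
    intro a
    rw [Cyh.mu_eq, Finset.sum_eq_single 0]
    · rw [mul_zero, neg_zero, Cyh.ee_zero, mul_one]
    · intro i _ hi
      rw [hcon i hi, zero_mul]
    · intro h0; exact absurd (Finset.mem_univ _) h0
  have hup : ∃ k : ℕ, orderOf u = p ^ k := ⟨1, by rw [pow_one]; exact h.huo⟩
  obtain ⟨y, hy, hne⟩ := sec_ne' h.hM cen_u hup (ind h) (maj h) hχ
  apply hne
  rw [bp_form cen_u b χ ⟨u, uC⟩ rfl y, ← Finset.sum_filter]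
  have h1 : ∑ φ ∈ Finset.univ.filter (fun φ : IrrCharacter (Ce (Subgroup.zpowers u)) => φ ∈ b),
      (aa (Ce (Subgroup.zpowers u)) χ φ : ℂ) * (φ : Ce (Subgroup.zpowers u) → ℂ) (⟨u, uC⟩ * y) =
      ∑ a, (mu θ χ a : ℂ) * (θ a : Ce (Subgroup.zpowers u) → ℂ) (⟨u, uC⟩ * y) := by
    symm
    refine Finset.sum_bij (fun (a : ZMod q) _ => θ a) ?_ ?_ ?_ ?_
    · intro a _; exact Finset.mem_filter.2 ⟨Finset.mem_univ _, h.hf.mem a⟩
    · intro a _ a' _ h'; exact h.hf.inj h'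
    · intro φ hφ
      obtain ⟨a, ha⟩ := h.hf.surj φ (Finset.mem_filter.1 hφ).2
      exact ⟨a, Finset.mem_univ _, ha⟩
    · intro a _
      congr 2
      unfold mu
      convert rfl
  rw [h1, Finset.sum_congr rfl fun a _ => by rw [hmu a], ← Finset.mul_sum, sum_sing h, mul_zero]
  have hcm : Commute (⟨u, uC⟩ : Ce (Subgroup.zpowers u)) y := by
    exact Subtype.ext (mem_Ce1.1 ((le_of_eq (cen_u (u := u))) y.2)).symm
  have hou : orderOf (⟨u, uC⟩ : Ce (Subgroup.zpowers u)) = p := by rw [Subgroup.orderOf_mk]; exact h.huo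
  rw [hcm.orderOf_mul_eq_mul_orderOf_of_coprime (by rw [hou]; exact (hp.out.coprime_iff_not_dvd).2 hy), hou]
  exact Dvd.intro _ rfl

/-- relations on p-regular elements -/
theorem reg_rel [Fintype (IrrCharacter G)] (h : Cfg p M B P E u b φ θ) {i : ZMod q} (hi : i ≠ 0) {g : G}
    (hg : ¬ p ∣ orderOf g) : ∑ χ : IrrCharacter G, Cyh.dd (mu θ) χ i * (χ : G → ℂ) g = 0 := by
  classical
  have h1 : ∀ χ : IrrCharacter G, Cyh.dd (mu θ) χ i * (χ : G → ℂ) g =
      ∑ y : G, ((Nat.card (Ce (Subgroup.zpowers u)) : ℂ)⁻¹ * conj (Fx θ i y)) *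
        ((χ : G → ℂ) y * conj ((χ : G → ℂ) g⁻¹)) := by
    intro χ
    rw [dd_F, Finset.mul_sum, Finset.sum_mul]
    refine Finset.sum_congr rfl fun y _ => ?_
    have h2 : conj ((χ : G → ℂ) g⁻¹) = (χ : G → ℂ) g := by
      rw [IsChar.inv_eq_conj (IsIrr.isCharacter χ.2) g, Complex.conj_conj]
    rw [h2]; ring
  rw [Finset.sum_congr rfl fun χ _ => h1 χ, Finset.sum_comm]
  apply Finset.sum_eq_zero
  intro y _
  rw [← Finset.mul_sum]
  by_cases hy : Fx θ i y = 0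
  · rw [hy]; simp
  · have h4 := dvd_order h hi hy
    rw [orth2, if_neg, mul_zero]
    intro hc
    have h5 : orderOf y = orderOf g⁻¹ := by
      obtain ⟨t, ht⟩ := isConj_iff.1 hc
      rw [← ht, orderOf_conj]
    rw [h5, orderOf_inv] at h4
    exact hg h4

theorem vv_out (h : Cfg p M B P E u b φ θ) {χ : IrrCharacter G} (hχ : χ ∉ B) (a : ZMod q) :
    Cyh.vv (mu θ) χ a = 0 := by
  have h1 := Cyh.vv_eq (mu θ) χ a
  rw [Finset.sum_eq_zero, mul_zero] at h1
  · exact_mod_cast h1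
  · intro i _
    by_cases hi : i = 0
    · rw [hi, mul_zero, neg_zero, Cyh.ee_zero, sub_self, mul_zero]
    · rw [dd_out h hχ hi, zero_mul]

theorem vv_rel (h : Cfg p M B P E u b φ θ) (a : ZMod q) {g : G} (hg : ¬ p ∣ orderOf g) :
    ∑ᶠ χ ∈ B, (Cyh.vv (mu θ) χ a : ℂ) * (χ : G → ℂ) g = 0 := by
  classical
  haveI : Fintype (IrrCharacter G) := Fintype.ofFinite _
  have h0 : ∑ χ : IrrCharacter G, (Cyh.vv (mu θ) χ a : ℂ) * (χ : G → ℂ) g = 0 := by
    have h1 : ∀ χ : IrrCharacter G, (Cyh.vv (mu θ) χ a : ℂ) * (χ : G → ℂ) g =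
        ∑ i : ZMod q, ((q : ℂ)⁻¹ * (1 - Cyh.ee (-(a * i)))) * (Cyh.dd (mu θ) χ i * (χ : G → ℂ) g) := by
      intro χ
      rw [Cyh.vv_eq, Finset.mul_sum, Finset.sum_mul]
      refine Finset.sum_congr rfl fun i _ => by ring
    rw [Finset.sum_congr rfl fun χ _ => h1 χ, Finset.sum_comm]
    apply Finset.sum_eq_zero
    intro i _
    rw [← Finset.mul_sum]
    by_cases hi : i = 0
    · rw [hi, mul_zero, neg_zero, Cyh.ee_zero, sub_self]; ring
    · rw [reg_rel h hi hg, mul_zero]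
  rw [finsum_mem_eq_finite_toFinset_sum _ (Set.toFinite B), ← h0]
  refine Finset.sum_subset (Finset.subset_univ _) fun χ _ hχ => ?_
  rw [Set.Finite.mem_toFinset] at hχ
  rw [vv_out h hχ]; simp

end out

section finish

variable {p : ℕ} {G : Type*} [Group G] [Fintype G] [hp : Fact p.Prime] {q : ℕ} [NeZero q]

/-- from the Gram matrix and the lower bound on the rank to the structure of the block -/
theorem finish' {B : Set (IrrCharacter G)} (mu : IrrCharacter G → ZMod q → ℕ) (H : Subgroup (ZMod q)ˣ) (hq : 1 < q)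
    (hfree : ∀ h ∈ H, ∀ i : ZMod q, i ≠ 0 → (h : ZMod q) * i = i → h = 1)
    (hK : ∀ i j : ZMod q, i ≠ 0 → j ≠ 0 → ((∃ h ∈ H, j = (h : ZMod q) * i) →
      ∑ᶠ χ ∈ B, Cyh.dd mu χ i * conj (Cyh.dd mu χ j) = (q : ℂ)) ∧ ((¬ ∃ h ∈ H, j = (h : ZMod q) * i) →
      ∑ᶠ χ ∈ B, Cyh.dd mu χ i * conj (Cyh.dd mu χ j) = 0))
    (hinv : ∀ χ ∈ B, ∀ h ∈ H, ∀ i : ZMod q, i ≠ 0 → Cyh.dd mu χ ((h : ZMod q) * i) = Cyh.dd mu χ i)
    (hne : ∀ χ ∈ B, ∃ i : ZMod q, i ≠ 0 ∧ Cyh.dd mu χ i ≠ 0)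
    (hrank : Nat.card H ≤ blockRank p B)
    (hrel : ∀ (a : ZMod q) (g : G), ¬ p ∣ orderOf g → ∑ᶠ χ ∈ B, (Cyh.vv mu χ a : ℂ) * (χ : G → ℂ) g = 0) :
    ∃ (X Y : Finset (IrrCharacter G)) (δ : IrrCharacter G → ℤ) (ε : ℤ) (L : Cyh.Orb H → IrrCharacter G),
      (∀ χ, χ ∈ B ↔ χ ∈ X ∨ χ ∈ Y) ∧ Disjoint X Y ∧ X.card = Nat.card H ∧ Y.card = Nat.card (Cyh.Orb H) ∧
      (∀ χ ∈ X, (δ χ = 1 ∨ δ χ = -1) ∧ ∀ a : ZMod q, a ≠ 0 → Cyh.vv mu χ a = δ χ) ∧ (ε = 1 ∨ ε = -1) ∧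
      Function.Injective L ∧ (∀ χ, χ ∈ Y ↔ ∃ o, L o = χ) ∧
      (∀ o (x : {x : ZMod q // x ≠ 0}), Cyh.om H x = o → Cyh.vv mu (L o) x.1 = -ε) ∧
      (∀ o (x : {x : ZMod q // x ≠ 0}), Cyh.om H x ≠ o → Cyh.vv mu (L o) x.1 = 0) ∧
      (∀ o g, ¬ p ∣ orderOf g → (ε : ℂ) * (L o : G → ℂ) g = ∑ χ ∈ X, (δ χ : ℂ) * (χ : G → ℂ) g) := by
  classical
  haveI : Fintype (Cyh.Orb H) := Fintype.ofFinite _
  set S := (Set.toFinite B).toFinset with hS
  have hSm : ∀ χ, χ ∈ S ↔ χ ∈ B := fun χ => by rw [hS, Set.Finite.mem_toFinset]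
  have hsum : ∀ F : IrrCharacter G → ℂ, ∑ᶠ χ ∈ B, F χ = ∑ χ ∈ S, F χ := fun F =>
    finsum_mem_eq_finite_toFinset_sum _ (Set.toFinite B)
  simp only [hsum] at hK hrel
  have hScard : S.card = Nat.card B := by
    rw [hS, ← Set.ncard_eq_toFinset_card]; rfl
  haveI : Nontrivial (ZMod q) := by
    haveI : Fact (1 < q) := ⟨hq⟩
    infer_instance
  haveI : Nonempty (Cyh.Orb H) := ⟨Cyh.om H ⟨1, one_ne_zero⟩⟩
  have hne' : ∀ χ ∈ S, ∃ a : ZMod q, Cyh.vv mu χ a ≠ 0 := by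
    intro χ hχ
    by_contra hcon
    push Not at hcon
    obtain ⟨i, hi, hd⟩ := hne χ ((hSm χ).1 hχ)
    apply hd
    rw [Cyh.dd_eq_vv mu χ hi, Finset.sum_eq_zero, neg_zero]
    intro a _
    rw [hcon a]; simp
  have hK' : ∀ i j : ZMod q, i ≠ 0 → j ≠ 0 → ∑ χ ∈ S, Cyh.dd mu χ i * conj (Cyh.dd mu χ j) =
      if (∃ h ∈ H, j = (h : ZMod q) * i) then (q : ℂ) else 0 := by
    intro i j hi hj
    split_ifs with h
    · exact (hK i j hi hj).1 h
    · exact (hK i j hi hj).2 h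
  have hgr : ∀ i j : Cyh.Orb H, ∑ χ ∈ S, Cyh.vv mu χ (Cyh.rp H i).1 * Cyh.vv mu χ (Cyh.rp H j).1 =
      (Nat.card H : ℤ) + if i = j then 1 else 0 := by
    intro i j
    rw [Cyh.gram mu S H hfree hK' (Cyh.rp H i).2 (Cyh.rp H j).2]
    congr 1
    by_cases hij : i = j
    · rw [if_pos hij, if_pos]
      rw [← Cyh.om_eq, Cyh.om_rp, Cyh.om_rp]; exact hij
    · rw [if_neg hij, if_neg]
      rw [← Cyh.om_eq, Cyh.om_rp, Cyh.om_rp]; exact hij
  have hcard : Nat.card H + Nat.card (Cyh.Orb H) ≤ S.card := by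
    rw [hScard]
    refine le_trans ?_ (rank_add (p := p) (B := B) (J := Cyh.Orb H) (fun j χ => (Cyh.vv mu χ (Cyh.rp H j).1 : ℂ)) ?_ ?_)
    · rw [Nat.card_eq_fintype_card (α := Cyh.Orb H)]
      omega
    · intro j g hg
      rw [hsum]; exact hrel _ g hg
    · intro c hc i
      have h1 : ∀ i : Cyh.Orb H, (Nat.card H : ℂ) * ∑ j, c j + c i = 0 := by
        intro i
        have h2 : ∑ χ ∈ S, (Cyh.vv mu χ (Cyh.rp H i).1 : ℂ) * ∑ j, c j * (Cyh.vv mu χ (Cyh.rp H j).1 : ℂ) = 0 :=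
          Finset.sum_eq_zero fun χ hχ => by rw [hc χ ((hSm χ).1 hχ), mul_zero]
        have h3 : ∑ χ ∈ S, (Cyh.vv mu χ (Cyh.rp H i).1 : ℂ) * ∑ j, c j * (Cyh.vv mu χ (Cyh.rp H j).1 : ℂ) =
            ∑ j, c j * ((Nat.card H : ℂ) + if i = j then 1 else 0) := by
          simp only [Finset.mul_sum]
          rw [Finset.sum_comm]
          refine Finset.sum_congr rfl fun j _ => ?_
          have h4 := congrArg (fun z : ℤ => (z : ℂ)) (hgr i j)
          simp only [Int.cast_add, Int.cast_sum, Int.cast_mul, Int.cast_natCast] at h4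
          have h5 : (((if i = j then 1 else 0 : ℤ)) : ℂ) = if i = j then 1 else 0 := by
            split_ifs <;> simp
          rw [h5] at h4
          rw [← h4, Finset.mul_sum]
          refine Finset.sum_congr rfl fun χ _ => by ring
        rw [h3] at h2
        simp only [mul_add, Finset.sum_add_distrib, ← Finset.sum_mul, mul_ite, mul_one, mul_zero] at h2
        rw [Finset.sum_ite_eq Finset.univ i, if_pos (Finset.mem_univ _)] at h2
        rw [mul_comm]; exact h2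
      have h2 : ∑ i : Cyh.Orb H, ((Nat.card H : ℂ) * ∑ j, c j + c i) = 0 := Finset.sum_eq_zero fun i _ => h1 i
      rw [Finset.sum_add_distrib, Finset.sum_const, Finset.card_univ, nsmul_eq_mul] at h2
      have h3 : ((Fintype.card (Cyh.Orb H) : ℂ) * Nat.card H + 1) * ∑ j, c j = 0 := by
        linear_combination h2
      have h4 : ((Fintype.card (Cyh.Orb H) : ℂ) * Nat.card H + 1) ≠ 0 := by
        have : ((Fintype.card (Cyh.Orb H) * Nat.card H + 1 : ℕ) : ℂ) ≠ 0 := Nat.cast_ne_zero.2 (Nat.succ_ne_zero _)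
        push_cast at this
        exact this
      have h5 : ∑ j, c j = 0 := (mul_eq_zero.1 h3).resolve_left h4
      have h6 := h1 i
      rw [h5, mul_zero, zero_add] at h6
      exact h6
  obtain ⟨X, Y, δ, L, s, hXY, hdis, hXc, hYc, hδ, hLinj, hLY, hs, hL1, hL2⟩ :=
    Cyh.structure_thm mu S H hq hfree (fun i j hi hj => hK i j hi hj)
      (fun χ hχ => hinv χ ((hSm χ).1 hχ)) hne' hcard
  have hmem : ∀ χ, χ ∈ B ↔ χ ∈ X ∨ χ ∈ Y := by
    intro χ
    rw [← Finset.mem_union, hXY, hSm]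
  have hYsum : ∀ F : IrrCharacter G → ℂ, ∑ χ ∈ Y, F χ = ∑ j, F (L j) := by
    intro F
    have : Y = Finset.univ.image L := by
      ext y; rw [hLY, Finset.mem_image]; simp
    rw [this, Finset.sum_image fun a _ b _ h => hLinj h]
  have hrel' : ∀ j g, ¬ p ∣ orderOf g → ∑ χ ∈ X, (δ χ : ℂ) * (χ : G → ℂ) g + (s j : ℂ) * (L j : G → ℂ) g = 0 := by
    intro j g hg
    have h1 := hrel (Cyh.rp H j).1 g hg
    rw [← hXY, Finset.sum_union hdis, hYsum, Finset.sum_eq_single j] at h1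
    · rw [← h1]
      congr 1
      · refine Finset.sum_congr rfl fun χ hχ => ?_
        rw [(hδ χ hχ).2 _ (Cyh.rp H j).2]
      · rw [hL1 j (Cyh.rp H j) (Cyh.om_rp H j)]
    · intro i _ hi
      rw [hL2 i (Cyh.rp H j) (by rw [Cyh.om_rp]; exact hi.symm)]; simp
    · intro h; exact absurd (Finset.mem_univ _) h
  have h1p : ¬ p ∣ orderOf (1 : G) := by
    rw [orderOf_one]; intro h; exact hp.out.one_lt.ne' (Nat.dvd_one.1 h)
  have hsconst : ∀ i j, s i = s j := by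
    intro i j
    have hi := hrel' i 1 h1p
    have hj := hrel' j 1 h1p
    obtain ⟨n, hn0, hn⟩ := irr_one (L i).2
    obtain ⟨m, hm0, hm⟩ := irr_one (L j).2
    rw [hn] at hi
    rw [hm] at hj
    have h1 : (s i : ℂ) * n = (s j : ℂ) * m := by linear_combination hi - hj
    have h2 : s i * n = s j * m := by exact_mod_cast h1
    rcases hs i with h | h <;> rcases hs j with h' | h' <;> rw [h, h'] at h2 ⊢ <;> omega
  obtain ⟨j0⟩ := ‹Nonempty (Cyh.Orb H)›
  refine ⟨X, Y, δ, -s j0, L, hmem, hdis, hXc, hYc, hδ, ?_, hLinj, hLY, ?_, hL2, ?_⟩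
  · rcases hs j0 with h | h
    · right; rw [h]
    · left; rw [h]; norm_num
  · intro o x hx
    rw [neg_neg, ← hsconst o j0]
    exact hL1 o x hx
  · intro o g hg
    have := hrel' o g hg
    rw [hsconst o j0] at this
    push_cast
    linear_combination -this

end finish

section main

variable {p : ℕ} {M : Ideal AlgInt} {G : Type*} [Group G] [Fintype G] [hMax : M.IsMaximal]
  [hp : Fact p.Prime] [hch : CharP (KM M) p] {P : Subgroup G} {E : MonoidAlgebra (KM M) G} {u : G}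
  {B : Set (IrrCharacter G)} {b : Set (IrrCharacter (Ce (Subgroup.zpowers u)))} {q : ℕ} [NeZero q]
  {φ : Multiplicative (ZMod q) ≃* P} {θ : ZMod q → IrrCharacter (Ce (Subgroup.zpowers u))}

/-- the conclusion of the structure theorem -/
def Str (B : Set (IrrCharacter G)) (p : ℕ) {q : ℕ} [NeZero q] (mu : IrrCharacter G → ZMod q → ℕ) (H : Subgroup (ZMod q)ˣ)
    (X Y : Finset (IrrCharacter G)) (δ : IrrCharacter G → ℤ) (ε : ℤ) (L : Cyh.Orb H → IrrCharacter G) : Prop :=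
  (∀ χ, χ ∈ B ↔ χ ∈ X ∨ χ ∈ Y) ∧ Disjoint X Y ∧ X.card = Nat.card H ∧ Y.card = Nat.card (Cyh.Orb H) ∧
      (∀ χ ∈ X, (δ χ = 1 ∨ δ χ = -1) ∧ ∀ a : ZMod q, a ≠ 0 → Cyh.vv mu χ a = δ χ) ∧ (ε = 1 ∨ ε = -1) ∧
      Function.Injective L ∧ (∀ χ, χ ∈ Y ↔ ∃ o, L o = χ) ∧
      (∀ o (x : {x : ZMod q // x ≠ 0}), Cyh.om H x = o → Cyh.vv mu (L o) x.1 = -ε) ∧
      (∀ o (x : {x : ZMod q // x ≠ 0}), Cyh.om H x ≠ o → Cyh.vv mu (L o) x.1 = 0) ∧
      (∀ o g, ¬ p ∣ orderOf g → (ε : ℂ) * (L o : G → ℂ) g = ∑ χ ∈ X, (δ χ : ℂ) * (χ : G → ℂ) g)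

theorem main (h : Cfg p M B P E u b φ θ) :
    ∃ (X Y : Finset (IrrCharacter G)) (δ : IrrCharacter G → ℤ) (ε : ℤ) (L : Cyh.Orb (HT φ (Nf P E)) → IrrCharacter G),
      Str B p (mu θ) (HT φ (Nf P E)) X Y δ ε L := by
  classical
  haveI : Fintype (IrrCharacter G) := Fintype.ofFinite _
  have hP1 : P ≠ ⊥ := by
    rintro rfl
    have := h.huP
    rw [Subgroup.mem_bot] at this
    have h2 := h.huo
    rw [this, orderOf_one] at h2
    exact hp.out.one_lt.ne h2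
  have hTN : Nf P E ≤ Nm P := fun t ht => (mem_Nf.1 ht).1
  have hq : 1 < q := by
    rw [← P_card φ]
    by_contra hle
    have h3 : Nat.card P = 1 := by
      have := Nat.card_pos (α := P)
      omega
    exact hP1 (Subgroup.card_eq_one.1 h3)
  unfold Str
  refine finish' (p := p) (B := B) (mu θ) (HT φ (Nf P E)) hq (free h) ?_ ?_ ?_ ?_ ?_
  · intro i j hi hj
    have h1 := kernel_all h i j hi hj
    have h2 : ∑ᶠ χ ∈ B, Cyh.dd (mu θ) χ i * conj (Cyh.dd (mu θ) χ j) =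
        ∑ χ : IrrCharacter G, Cyh.dd (mu θ) χ i * conj (Cyh.dd (mu θ) χ j) := by
      rw [finsum_mem_eq_finite_toFinset_sum _ (Set.toFinite B)]
      refine Finset.sum_subset (Finset.subset_univ _) fun χ _ hχ => ?_
      rw [Set.Finite.mem_toFinset] at hχ
      rw [dd_out h hχ hi, zero_mul]
    rw [h2]
    exact h1
  · intro χ _ g hg i _
    exact dd_inv h χ hg i
  · intro χ hχ
    exact exists_dd_ne h hχ
  · rw [card_HT φ hTN]
    exact Cyw.lower' h.hM h.hB h.hP h.htop h.hc hP1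
  · intro a g hg
    exact vv_rel h a hg

/-- configurations exist -/
theorem exists_cfg (hM : IsPModular p M) (hB : IsPBlock M B) (hP : BP p (epG M B) P E) (htop : KG.Top p P E)
    (hc : IsCyclic P) (huP : u ∈ P) (huo : orderOf u = p) (φ : Multiplicative (ZMod q) ≃* P) :
    ∃ b θ, Cfg p M B P E u b φ θ := by
  have hP1 : P ≠ ⊥ := by
    rintro rfl
    rw [Subgroup.mem_bot] at huP
    rw [huP, orderOf_one] at huo
    exact hp.out.one_lt.ne huo
  have hQ1 : Subgroup.zpowers u ≠ ⊥ := by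
    rw [Ne, Subgroup.zpowers_eq_bot]
    rintro rfl
    rw [orderOf_one] at huo
    exact hp.out.one_lt.ne huo
  obtain ⟨f, -, hle⟩ := le_exists hP.pg hP.be (Subgroup.zpowers_le.2 huP)
  obtain ⟨b, hb, hbf, hnil, -⟩ := Cyg.rank_cent hM hP htop hc hle hQ1
  subst hbf
  obtain ⟨θ, hf⟩ := exists_fam3 hM hP htop hc hP1 φ hb hnil hle
  exact ⟨b, θ, hM, hB, hP, htop, hc, huP, huo, hb, hnil, hle, hf⟩

end main

end Cfsg.Agent.H25.Cza
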