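import Mathlib
import Cfsg.Agent.H25_Cza
import Cfsg.Agent.H25_Cyp

/-!
H25_Czb: heights and degree congruences in a block with cyclic defect group.
-/

set_option autoImplicit false
set_option linter.unusedSectionVars false

open scoped ComplexConjugate

namespace Cfsg.Agent.H25.Czb

open Cfsg Cfsg.Agent.H3 Cfsg.Agent.H3.CharIrr Cfsg.Agent.H3.CharComplete Cfsg.Agent.H3.CharBasic
  Cfsg.Agent.H10.BlockLoc Cfsg.Agent.H10.BlockAlg Cfsg.Agent.H10.BlockIdem Cfsg.Agent.H10.Char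
  Cfsg.Agent.H10.BlockSMT Cfsg.Agent.H10.BlockSMT2 Cfsg.Agent.H10.BlockTrace Cfsg.Agent.H10.BlockDefect
  Cfsg.Agent.H10.BlockMain Cfsg.Agent.H10.BlockHZ Cfsg.Agent.H10.BlockOrth
  Cfsg.Agent.H10.PPart Cfsg.Agent.H25.IndCong Cfsg.Agent.H25.Red Cfsg.Agent.H25.KG Cfsg.Agent.H25.Up
  Cfsg.Agent.H25.BPTr Cfsg.Agent.H25.BPMain Cfsg.Agent.H25.BPDef Cfsg.Agent.H25.Fus Cfsg.Agent.H25.Nilp
  Cfsg.Agent.H25.NilpAb Cfsg.Agent.H25.Rel Cfsg.Agent.H25.FMT Cfsg.Agent.H25.Sub Cfsg.Agent.H25.Sub2 Cfsg.Agent.H25.Cyk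
  Cfsg.Agent.H25.Cys Cfsg.Agent.H25.Cyn Cfsg.Agent.H25.Cyi Cfsg.Agent.H25.Cyx Cfsg.Agent.H25.Cyy Cfsg.Agent.H25.Cyz
  Cfsg.Agent.H25.Cza

section van

variable {p : ℕ} {M : Ideal AlgInt} {G : Type*} [Group G] [Fintype G] [hMax : M.IsMaximal]
  [hp : Fact p.Prime] [hch : CharP (KM M) p] {P : Subgroup G} {E : MonoidAlgebra (KM M) G} {u : G}
  {B : Set (IrrCharacter G)} {b : Set (IrrCharacter (Ce (Subgroup.zpowers u)))} {q : ℕ} [NeZero q]
  {φ : Multiplicative (ZMod q) ≃* P} {θ : ZMod q → IrrCharacter (Ce (Subgroup.zpowers u))}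

/-- the blocks of the centralizer inducing B are conjugate -/
theorem conj_b (h : Cfg p M B P E u b φ θ) {b' : Set (IrrCharacter (Ce (Subgroup.zpowers u)))}
    (hind : IsInducedBlock M (Ce (Subgroup.zpowers u)) b' B) :
    ∃ g ∈ Nm (Subgroup.zpowers u), ∃ hK : Ce (Subgroup.zpowers u) = cs g (Ce (Subgroup.zpowers u)), b' = tB (cI g hK) b := by
  obtain ⟨hQ, hf⟩ := h.hle.pair h.hP.pg h.hP.be
  obtain ⟨-, hb', hbp'⟩ := bpo_iff.1 ((H25.BPInd.bpo_iff_induced h.hM).2 ⟨hQ, hind⟩)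
  obtain ⟨x, hx⟩ := h.hP.conj_le h.htop hbp'
  have e1 : cs x (Subgroup.zpowers u) = Subgroup.zpowers (x * u * x⁻¹) := AbSec.cs_zp x u
  have e2 : x * u * x⁻¹ ∈ P := hx.le (by rw [e1]; exact Subgroup.mem_zpowers _)
  have e3 : x * u * x⁻¹ ∈ Subgroup.zpowers u :=
    Cyg.zp_mem_of_order h.hc h.huP e2 h.huo (by rw [orderOf_conj]; exact h.huo)
  have hxN : x ∈ Nm (Subgroup.zpowers u) := nm_of_conj e3
  have e4 : cs x (Subgroup.zpowers u) = Subgroup.zpowers u := mem_normalizer_iff_cs.1 hxN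
  rw [e4] at hx
  have e5 := le_unique h.hP.pg h.hP.be hx h.hle
  have hgN : x⁻¹ ∈ Nm (Subgroup.zpowers u) := inv_mem hxN
  have hK : Ce (Subgroup.zpowers u) = cs x⁻¹ (Ce (Subgroup.zpowers u)) :=
    (mem_normalizer_iff_cs.1 (norm_le_norm_Ce _ hgN)).symm
  refine ⟨x⁻¹, hgN, hK, ?_⟩
  refine ep_inj hb' (isPBlock_tB (cI x⁻¹ hK) h.hb) ?_
  rw [ep_conj, ← e5, cnj_inv_cnj]

theorem bp_tB [Fintype (Ce (Subgroup.zpowers u))] {g : G} (hK : Ce (Subgroup.zpowers u) = cs g (Ce (Subgroup.zpowers u)))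
    (b : Set (IrrCharacter (Ce (Subgroup.zpowers u)))) (χ : IrrCharacter G) (y : Ce (Subgroup.zpowers u)) :
    blockPart (tB (cI g hK) b) (fun c : Ce (Subgroup.zpowers u) => (χ : G → ℂ) c) (cI g hK y) =
      blockPart b (fun c : Ce (Subgroup.zpowers u) => (χ : G → ℂ) c) y := by
  rw [bp_res, bp_res]
  symm
  refine Fintype.sum_equiv (cI g hK).toEquiv _ _ fun k => ?_
  have e1 : (cI g hK).toEquiv k = cI g hK k := rfl
  rw [e1, blockCoeff_tB]
  congr 1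
  have e2 : ((cI g hK k : Ce (Subgroup.zpowers u)) : G) * ((cI g hK y : Ce (Subgroup.zpowers u)) : G) = g * ((k : G) * y) * g⁻¹ := by
    rw [cI_coe, cI_coe]; group
  rw [e2, IsIrr.isClass χ.2]

/-- linear combinations not seen by the decomposition numbers vanish on the defect group -/
theorem van (h : Cfg p M B P E u b φ θ) {ι : Type*} [Fintype ι] (c : ι → ℤ) (χ : ι → IrrCharacter G)
    (hχ : ∀ k, χ k ∈ B) (hD : ∀ i : ZMod q, i ≠ 0 → ∑ k, (c k : ℂ) * Cyh.dd (mu θ) (χ k) i = 0) {w : G} (hw : w ∈ P)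
    (hw1 : w ≠ 1) : ∑ k, (c k : ℂ) * (χ k : G → ℂ) w = 0 := by
  classical
  haveI : Fintype (Ce (Subgroup.zpowers u)) := Fintype.ofFinite _
  have hab := cyc_comm h.hc
  have hPC : P ≤ Ce (Subgroup.zpowers u) := le_Ce_ab hab h.hle.le
  have huw := u_mem_zp h.hP.pg h.hc h.huP h.huo hw hw1
  have hwo : ∃ k : ℕ, orderOf w = p ^ k := by
    obtain ⟨k, hk⟩ := IsPGroup.iff_orderOf.1 h.hP.pg ⟨w, hw⟩
    rw [Subgroup.orderOf_mk] at hk
    exact ⟨k, hk⟩
  have hup : ∃ k : ℕ, orderOf u = p ^ k := ⟨1, by rw [pow_one]; exact h.huo⟩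
  have hpp : ∀ z : G, IsPPart p w z → Subgroup.centralizer ({z} : Set G) ≤ Ce (Subgroup.zpowers u) := by
    intro z hz
    have h1 : w = z := ppart_unique (p := p) ⟨1, mul_one w, Commute.one_right w, hwo, by
      rw [orderOf_one]; exact fun h => hp.out.one_lt.ne' (Nat.dvd_one.1 h)⟩ hz
    exact part_le hz (h1 ▸ huw)
  have hdvd : ∀ y : Ce (Subgroup.zpowers u), (∃ t : G, (y : G) = t * w * t⁻¹) → p ∣ orderOf y := by
    rintro y ⟨t, ht⟩
    rw [← Subgroup.orderOf_coe, ht, orderOf_conj, ← h.huo, ← Nat.card_zpowers, ← Nat.card_zpowers]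
    exact Subgroup.card_dvd_of_le (Subgroup.zpowers_le.2 huw)
  -- constancy of the multiplicities
  have hmu : ∀ a, ∑ k, (c k : ℂ) * (mu θ (χ k) a : ℂ) = (q : ℂ)⁻¹ * ∑ k, (c k : ℂ) * Cyh.dd (mu θ) (χ k) 0 := by
    intro a
    have h1 : ∑ k, (c k : ℂ) * (mu θ (χ k) a : ℂ) =
        (q : ℂ)⁻¹ * ∑ i, (∑ k, (c k : ℂ) * Cyh.dd (mu θ) (χ k) i) * Cyh.ee (-(a * i)) := by
      simp only [Finset.sum_mul, Finset.mul_sum]
      rw [Finset.sum_comm]
      refine Finset.sum_congr rfl fun k _ => ?_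
      rw [Cyh.mu_eq, Finset.mul_sum, Finset.mul_sum]
      refine Finset.sum_congr rfl fun i _ => by ring
    rw [h1, Finset.sum_eq_single 0]
    · rw [mul_zero, neg_zero, Cyh.ee_zero, mul_one]
    · intro i _ hi
      rw [hD i hi, zero_mul]
    · intro h0; exact absurd (Finset.mem_univ _) h0
  -- the block b
  have key : ∀ y : Ce (Subgroup.zpowers u), p ∣ orderOf y →
      ∑ k, (c k : ℂ) * blockPart b (fun c : Ce (Subgroup.zpowers u) => (χ k : G → ℂ) c) y = 0 := by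
    intro y hy
    have h1 : ∀ k, (c k : ℂ) * blockPart b (fun c : Ce (Subgroup.zpowers u) => (χ k : G → ℂ) c) y =
        ∑ a, (c k : ℂ) * (mu θ (χ k) a : ℂ) * (θ a : Ce (Subgroup.zpowers u) → ℂ) y := by
      intro k
      rw [bp_sum h, Finset.mul_sum]
      exact Finset.sum_congr rfl fun a _ => by ring
    rw [Finset.sum_congr rfl fun k _ => h1 k, Finset.sum_comm]
    have h2 : ∀ a, ∑ k, (c k : ℂ) * (mu θ (χ k) a : ℂ) * (θ a : Ce (Subgroup.zpowers u) → ℂ) y =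
        ((q : ℂ)⁻¹ * ∑ k, (c k : ℂ) * Cyh.dd (mu θ) (χ k) 0) * (θ a : Ce (Subgroup.zpowers u) → ℂ) y := by
      intro a
      rw [← Finset.sum_mul, hmu a]
    rw [Finset.sum_congr rfl fun a _ => h2 a, ← Finset.mul_sum, sum_sing h hy, mul_zero]
  -- decomposition according to the blocks
  have hdec : ∀ k, (χ k : G → ℂ) w = ∑ b' ∈ blocks (Ce (Subgroup.zpowers u)) M,
      blockPart b' (fun c : Ce (Subgroup.zpowers u) => (χ k : G → ℂ) c) ⟨w, hPC hw⟩ := by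
    intro k
    have h1 := lin_single_eq_sum (M := M) (Ce (Subgroup.zpowers u)) (χ k : G → ℂ) w
    rw [h1]
    refine Finset.sum_congr rfl fun b' _ => ?_
    rw [lin_emb_mul_single, bp_res]
    refine Finset.sum_congr rfl fun c' _ => ?_
    rw [eB_coeff]
  rw [Finset.sum_congr rfl fun k _ => by rw [hdec k, Finset.mul_sum], Finset.sum_comm]
  apply Finset.sum_eq_zero
  intro b' hb'
  rw [mem_blocks] at hb'
  obtain ⟨B', hB'⟩ := Cyp.ind_def h.hM cen_u hup hb'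
  by_cases hBB : B' = B
  · subst hBB
    obtain ⟨g, hg, hK, rfl⟩ := conj_b h hB'
    have h2 : (⟨w, hPC hw⟩ : Ce (Subgroup.zpowers u)) = cI g hK ((cI g hK).symm ⟨w, hPC hw⟩) :=
      (MulEquiv.apply_symm_apply _ _).symm
    have h3 : ∀ k, blockPart (tB (cI g hK) b) (fun c : Ce (Subgroup.zpowers u) => (χ k : G → ℂ) c) ⟨w, hPC hw⟩ =
        blockPart b (fun c : Ce (Subgroup.zpowers u) => (χ k : G → ℂ) c) ((cI g hK).symm ⟨w, hPC hw⟩) := by
      intro k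
      conv_lhs => rw [h2]
      rw [bp_tB]
    rw [Finset.sum_congr rfl fun k _ => by rw [h3 k]]
    apply key
    apply hdvd
    refine ⟨g⁻¹, ?_⟩
    have h4 := cI_coe g hK ((cI g hK).symm ⟨w, hPC hw⟩)
    rw [MulEquiv.apply_symm_apply] at h4
    have h5 : w = g * ((((cI g hK).symm ⟨w, hPC hw⟩ : Ce (Subgroup.zpowers u))) : G) * g⁻¹ := h4
    conv_rhs => rw [h5]
    group
  · apply Finset.sum_eq_zero
    intro k _
    have h2 : χ k ∉ B' := by
      intro hk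
      exact hBB (block_eq_of_mem hB'.2.1 h.hB hk (hχ k))
    rw [bp_res, smt_idem h.hM (Ce (Subgroup.zpowers u)) hB' ⟨w, hPC hw⟩ hpp h2, mul_zero]

/-- divisibility of degrees -/
theorem deg_dvd (h : Cfg p M B P E u b φ θ) {ι : Type*} [Fintype ι] (c : ι → ℤ) (χ : ι → IrrCharacter G)
    (hχ : ∀ k, χ k ∈ B) (hD : ∀ i : ZMod q, i ≠ 0 → ∑ k, (c k : ℂ) * Cyh.dd (mu θ) (χ k) i = 0) :
    (q : ℤ) ∣ ∑ k, c k * (charDegree (χ k : G → ℂ) : ℤ) := by
  classical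
  haveI : Fintype P := Fintype.ofFinite _
  set τ : IrrCharacter P := ⟨fun x => (1 : P →* ℂ) x, CharInd.isIrr_of_hom _⟩ with hτ
  have h1 : ∀ k, ∑ x : P, (χ k : G → ℂ) (x : G) = (q : ℂ) * (aa P (χ k) τ : ℂ) := by
    intro k
    rw [← aa_spec, classInner, P_card φ, ← mul_assoc, mul_inv_cancel₀ Cyh.q_ne, one_mul]
    refine Finset.sum_congr rfl fun x _ => ?_
    have : (τ : P → ℂ) x = 1 := rfl
    rw [this, map_one, mul_one]
  have h2 : ∑ k, (c k : ℂ) * ∑ x : P, (χ k : G → ℂ) (x : G) = ∑ k, (c k : ℂ) * (charDegree (χ k : G → ℂ) : ℂ) := by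
    simp only [Finset.mul_sum]
    rw [Finset.sum_comm, Finset.sum_eq_single (1 : P)]
    · refine Finset.sum_congr rfl fun k _ => ?_
      rw [Subgroup.coe_one, charDegree_eq (χ k).2]
    · intro x _ hx
      exact van h c χ hχ hD x.2 (fun h0 => hx (Subtype.ext h0))
    · intro h0; exact absurd (Finset.mem_univ _) h0
  refine ⟨∑ k, c k * (aa P (χ k) τ : ℤ), ?_⟩
  have h3 : ((∑ k, c k * (charDegree (χ k : G → ℂ) : ℤ) : ℤ) : ℂ) =
      (((q : ℤ) * ∑ k, c k * (aa P (χ k) τ : ℤ) : ℤ) : ℂ) := by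
    push_cast
    rw [← h2, Finset.mul_sum]
    refine Finset.sum_congr rfl fun k _ => ?_
    rw [h1 k]; ring
  exact_mod_cast h3

end van

section height

variable {p : ℕ} {M : Ideal AlgInt} {G : Type*} [Group G] [Fintype G] [hMax : M.IsMaximal]
  [hp : Fact p.Prime] [hch : CharP (KM M) p] {P : Subgroup G} {E : MonoidAlgebra (KM M) G} {u : G}
  {B : Set (IrrCharacter G)} {b : Set (IrrCharacter (Ce (Subgroup.zpowers u)))} {q : ℕ} [NeZero q]
  {φ : Multiplicative (ZMod q) ≃* P} {θ : ZMod q → IrrCharacter (Ce (Subgroup.zpowers u))}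

theorem Fx_conj (i : ZMod q) (y : G) : conj (Fx θ i y) = Fx θ (-i) y⁻¹ := by
  haveI : Fintype (Ce (Subgroup.zpowers u)) := Fintype.ofFinite _
  by_cases hy : y ∈ Ce (Subgroup.zpowers u)
  · rw [show y = ((⟨y, hy⟩ : Ce (Subgroup.zpowers u)) : G) from rfl, Fx_mem,
      show (((⟨y, hy⟩ : Ce (Subgroup.zpowers u)) : G))⁻¹ = (((⟨y, hy⟩⁻¹ : Ce (Subgroup.zpowers u))) : G) from rfl,
      Fx_mem, map_sum]
    refine Finset.sum_congr rfl fun a _ => ?_
    rw [map_mul, Cyh.ee_conj, IsChar.inv_eq_conj (IsIrr.isCharacter (θ a).2), mul_neg]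
  · rw [Fx_notMem i hy, Fx_notMem, map_zero]
    intro h; exact hy (inv_mem_iff.1 h)

theorem Fx_loc (h : Cfg p M B P E u b φ θ) (i : ZMod q) (y : G) : ∃ τ, MemLocalRing M τ ∧ Fx θ i y = q * τ := by
  by_cases hy : y ∈ Ce (Subgroup.zpowers u)
  · obtain ⟨τ, h1, h2⟩ := h.hf.loc i ⟨y, hy⟩
    refine ⟨τ, h1, ?_⟩
    rw [← h2]
    exact Fx_mem i ⟨y, hy⟩
  · exact ⟨0, ring_zero, by rw [Fx_notMem i hy, mul_zero]⟩

open Classical in
theorem sum_coset (i : ZMod q) (y : G) : ∑ t : G, Fx θ i (t * y * t⁻¹) =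
    (Nat.card (Ce (Subgroup.zpowers u)) : ℂ) * ∑ x : G ⧸ Ce (Subgroup.zpowers u), Fx θ i (x.out⁻¹ * y * x.out) := by
  haveI : Fintype (Ce (Subgroup.zpowers u)) := Fintype.ofFinite _
  have h1 : ∑ t : G, Fx θ i (t * y * t⁻¹) = ∑ t : G, Fx θ i (t⁻¹ * y * t) := by
    refine Fintype.sum_equiv (Equiv.inv G) _ _ fun t => ?_
    rw [Equiv.inv_apply, inv_inv]
  rw [h1, ← Equiv.sum_comp (Subgroup.groupEquivQuotientProdSubgroup (s := Ce (Subgroup.zpowers u))).symm,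
    Fintype.sum_prod_type, Finset.mul_sum]
  refine Finset.sum_congr rfl fun x _ => ?_
  rw [Nat.card_eq_fintype_card, ← nsmul_eq_mul, ← Finset.card_univ, ← Finset.sum_const]
  refine Finset.sum_congr rfl fun c _ => ?_
  have h2 : ∃ c' ∈ Ce (Subgroup.zpowers u), (Subgroup.groupEquivQuotientProdSubgroup (s := Ce (Subgroup.zpowers u))).symm (x, c) =
      x.out * c' := by
    set g := (Subgroup.groupEquivQuotientProdSubgroup (s := Ce (Subgroup.zpowers u))).symm (x, c) with hg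
    have h3 : (g : G ⧸ Ce (Subgroup.zpowers u)) = x := by
      have h4 : (Subgroup.groupEquivQuotientProdSubgroup (s := Ce (Subgroup.zpowers u))) g = (x, c) := by
        rw [hg, Equiv.apply_symm_apply]
      exact congrArg Prod.fst h4
    refine ⟨x.out⁻¹ * g, ?_, by group⟩
    rw [← QuotientGroup.eq, QuotientGroup.out_eq', h3]
  obtain ⟨c', hc', h3⟩ := h2
  rw [h3]
  have h4 : (x.out * c')⁻¹ * y * (x.out * c') = c'⁻¹ * (x.out⁻¹ * y * x.out) * c'⁻¹⁻¹ := by group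
  rw [h4, Fx_class i (inv_mem hc')]

/-- the induced function as a central element -/
noncomputable def zF (θ : ZMod q → IrrCharacter (Ce (Subgroup.zpowers u))) (i : ZMod q) : ZC G :=
  ⟨ofFun fun g => (q : ℂ)⁻¹ * ((Nat.card (Ce (Subgroup.zpowers u)) : ℂ)⁻¹ * ∑ t : G, Fx θ (-i) (t * g⁻¹ * t⁻¹)), by
    rw [mem_center_iff]
    intro x y
    show (q : ℂ)⁻¹ * ((Nat.card (Ce (Subgroup.zpowers u)) : ℂ)⁻¹ * ∑ t : G, Fx θ (-i) (t * (y * x * y⁻¹)⁻¹ * t⁻¹)) =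
      (q : ℂ)⁻¹ * ((Nat.card (Ce (Subgroup.zpowers u)) : ℂ)⁻¹ * ∑ t : G, Fx θ (-i) (t * x⁻¹ * t⁻¹))
    congr 2
    refine Fintype.sum_equiv (Equiv.mulRight y) _ _ fun t => ?_
    rw [Equiv.coe_mulRight]
    congr 1
    group⟩

theorem zF_c (i : ZMod q) (g : G) : (zF θ i : MonoidAlgebra ℂ G).coeff g =
    (q : ℂ)⁻¹ * ((Nat.card (Ce (Subgroup.zpowers u)) : ℂ)⁻¹ * ∑ t : G, Fx θ (-i) (t * g⁻¹ * t⁻¹)) := rfl

theorem zF_int (h : Cfg p M B P E u b φ θ) (i : ZMod q) : zF θ i ∈ ZI G M := by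
  classical
  intro g
  rw [zF_c, sum_coset, ← mul_assoc (Nat.card (Ce (Subgroup.zpowers u)) : ℂ)⁻¹, inv_mul_cancel₀ cC, one_mul, Finset.mul_sum]
  refine ring_sum _ _ fun x _ => ?_
  obtain ⟨τ, h1, h2⟩ := Fx_loc h (-i) (x.out⁻¹ * g⁻¹ * x.out)
  rw [h2, ← mul_assoc, inv_mul_cancel₀ Cyh.q_ne, one_mul]
  exact h1

theorem om_zF (χ : IrrCharacter G) (i : ZMod q) : om χ (zF θ i) =
    (Nat.card G : ℂ) / ((χ : G → ℂ) 1 * q) * Cyh.dd (mu θ) χ i := by
  classical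
  have h0 : (χ : G → ℂ) 1 ≠ 0 := IsIrr.one_ne_zero χ.2
  rw [om_apply, lin_apply]
  have h1 : ∑ g : G, (zF θ i : MonoidAlgebra ℂ G).coeff g * (χ : G → ℂ) g =
      (q : ℂ)⁻¹ * (Nat.card (Ce (Subgroup.zpowers u)) : ℂ)⁻¹ * ∑ t : G, ∑ g : G, (χ : G → ℂ) g * Fx θ (-i) (t * g⁻¹ * t⁻¹) := by
    rw [Finset.sum_comm, Finset.mul_sum]
    refine Finset.sum_congr rfl fun g _ => ?_
    rw [zF_c, ← Finset.mul_sum]; ring
  have h2 : ∀ t : G, ∑ g : G, (χ : G → ℂ) g * Fx θ (-i) (t * g⁻¹ * t⁻¹) =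
      ∑ g : G, (χ : G → ℂ) g * conj (Fx θ i g) := by
    intro t
    refine Fintype.sum_equiv (MulAut.conj t).toEquiv _ _ fun g => ?_
    have e1 : (MulAut.conj t).toEquiv g = t * g * t⁻¹ := rfl
    rw [e1, IsIrr.isClass χ.2, Fx_conj]
    congr 2
    group
  rw [h1, Finset.sum_congr rfl fun t _ => h2 t, Finset.sum_const, Finset.card_univ, dd_F, nsmul_eq_mul,
    Nat.card_eq_fintype_card (α := G)]
  field_simp

/-- characters with a unit decomposition number have height zero -/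
theorem height_of (h : Cfg p M B P E u b φ θ) {χ : IrrCharacter G} (hχ : χ ∈ B) {i : ZMod q}
    (hd : MemLocalRing M (Cyh.dd (mu θ) χ i)) (hu : ¬ MemLocalIdeal M (Cyh.dd (mu θ) χ i)) :
    blockHeight p B (χ : G → ℂ) = 0 := by
  have h0 := ne_zero_of_not_ideal hu
  have h1 := om_mem (M := M) χ (zF_int h i)
  rw [om_zF] at h1
  have h2 := ring_mul h1 (ring_inv hd hu)
  rw [mul_assoc, mul_inv_cancel₀ h0, mul_one] at h2
  have h3 : (Nat.card G : ℂ) / ((χ : G → ℂ) 1 * q) = ((Nat.card G : ℕ) : ℂ) / ((charDegree (χ : G → ℂ) * q : ℕ) : ℂ) := by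
    push_cast
    rw [charDegree_eq χ.2]
  rw [h3, ring_nat_div_iff h.hM Nat.card_pos.ne' (mul_ne_zero (charDegree_pos χ.2).ne' (NeZero.ne q)),
    Nat.factorization_mul (charDegree_pos χ.2).ne' (NeZero.ne q), Finsupp.add_apply] at h2
  have hPD : IsDefectGroup p M B P := (defectG_iff h.hM h.hB).2 (BPDef.Top.dgh h.htop h.hP)
  have h4 := card_defectGroup h.hM h.hB hPD
  rw [P_card φ] at h4
  rw [h4, Nat.factorization_pow, Finsupp.smul_apply, hp.out.factorization_self, smul_eq_mul, mul_one] at h2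
  have h5 : sInf ((fun χ : IrrCharacter G => (charDegree (χ : G → ℂ)).factorization p) '' B) ≤
      (charDegree (χ : G → ℂ)).factorization p := Nat.sInf_le ⟨χ, hχ, rfl⟩
  unfold blockDefect at h2
  unfold blockHeight
  omega

end height

section concl

variable {p : ℕ} {M : Ideal AlgInt} {G : Type*} [Group G] [Fintype G] [hMax : M.IsMaximal]
  [hp : Fact p.Prime] [hch : CharP (KM M) p] {P : Subgroup G} {E : MonoidAlgebra (KM M) G} {u : G}
  {B : Set (IrrCharacter G)} {b : Set (IrrCharacter (Ce (Subgroup.zpowers u)))} {q : ℕ} [NeZero q]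
  {φ : Multiplicative (ZMod q) ≃* P} {θ : ZMod q → IrrCharacter (Ce (Subgroup.zpowers u))}

/-- the exceptional rows -/
theorem dd_L {H : Subgroup (ZMod q)ˣ} [Fintype H] (hfree : ∀ h ∈ H, ∀ i : ZMod q, i ≠ 0 → (h : ZMod q) * i = i → h = 1)
    {X Y : Finset (IrrCharacter G)} {δ : IrrCharacter G → ℤ} {ε : ℤ}
    {L : Cyh.Orb H → IrrCharacter G} (hs : Str B p (mu θ) H X Y δ ε L) (o : Cyh.Orb H) {i : ZMod q} (hi : i ≠ 0) :
    Cyh.dd (mu θ) (L o) i = (ε : ℂ) * ∑ h : H, Cyh.ee (((h : (ZMod q)ˣ) : ZMod q) * ((Cyh.rp H o).1 * i)) := by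
  classical
  obtain ⟨hmem, hdis, hXc, hYc, hδ, hε, hLinj, hLY, hL1, hL2, hrel⟩ := hs
  rw [Cyh.dd_eq_vv _ _ hi]
  have h1 : ∀ h : H, (((h : (ZMod q)ˣ) : ZMod q) * (Cyh.rp H o).1) ≠ 0 := by
    intro h h0
    apply (Cyh.rp H o).2
    have := congrArg (fun z => (((h : (ZMod q)ˣ)⁻¹ : (ZMod q)ˣ) : ZMod q) * z) h0
    simpa [← mul_assoc] using this
  have h2 : ∑ a : ZMod q, (Cyh.vv (mu θ) (L o) a : ℂ) * Cyh.ee (a * i) =
      ∑ h : H, (Cyh.vv (mu θ) (L o) (((h : (ZMod q)ˣ) : ZMod q) * (Cyh.rp H o).1) : ℂ) *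
        Cyh.ee ((((h : (ZMod q)ˣ) : ZMod q) * (Cyh.rp H o).1) * i) := by
    symm
    refine Finset.sum_bij_ne_zero (fun (h : H) _ _ => (((h : (ZMod q)ˣ) : ZMod q) * (Cyh.rp H o).1))
      (fun _ _ _ => Finset.mem_univ _) ?_ ?_ (fun _ _ _ => rfl)
    · intro g _ _ g' _ _ heq
      have h3 : ((((g' : (ZMod q)ˣ))⁻¹ * (g : (ZMod q)ˣ) : (ZMod q)ˣ) : ZMod q) * (Cyh.rp H o).1 = (Cyh.rp H o).1 := by
        rw [Units.val_mul, mul_assoc, heq, ← mul_assoc, Units.inv_mul, one_mul]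
      have h4 := hfree _ (mul_mem (inv_mem g'.2) g.2) _ (Cyh.rp H o).2 h3
      exact (Subtype.ext (inv_mul_eq_one.1 h4)).symm
    · intro a _ ha
      have hv : Cyh.vv (mu θ) (L o) a ≠ 0 := by
        intro h0; exact ha (by rw [h0]; simp)
      have ha0 : a ≠ 0 := by
        rintro rfl; exact hv (Cyh.vv_zero _ _)
      have h3 : Cyh.om H ⟨a, ha0⟩ = o := by
        by_contra hne
        exact hv (hL2 o ⟨a, ha0⟩ hne)
      have h4 : Cyh.om H ⟨a, ha0⟩ = Cyh.om H (Cyh.rp H o) := by rw [h3, Cyh.om_rp]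
      obtain ⟨g, hg, hga⟩ := (Cyh.om_eq H).1 h4
      have hga' : a = (g : ZMod q) * (Cyh.rp H o).1 := hga
      refine ⟨⟨g, hg⟩, Finset.mem_univ _, ?_, hga'.symm⟩
      show (Cyh.vv (mu θ) (L o) ((g : ZMod q) * (Cyh.rp H o).1) : ℂ) * Cyh.ee (((g : ZMod q) * (Cyh.rp H o).1) * i) ≠ 0
      rw [← hga']; exact ha
  rw [h2, ← Finset.sum_neg_distrib, Finset.mul_sum]
  refine Finset.sum_congr rfl fun g _ => ?_
  have h3 : Cyh.vv (mu θ) (L o) (((g : (ZMod q)ˣ) : ZMod q) * (Cyh.rp H o).1) = -ε := by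
    refine hL1 o ⟨_, h1 g⟩ ?_
    have h4 : Cyh.om H ⟨_, h1 g⟩ = Cyh.om H (Cyh.rp H o) := (Cyh.om_eq H).2 ⟨(g : (ZMod q)ˣ), g.2, rfl⟩
    rw [h4, Cyh.om_rp]
  rw [h3, mul_assoc ((g : (ZMod q)ˣ) : ZMod q)]
  push_cast; ring

theorem q_pow (h : Cfg p M B P E u b φ θ) : ∃ n : ℕ, q = p ^ n := by
  obtain ⟨n, hn⟩ := IsPGroup.iff_card.1 h.hP.pg
  exact ⟨n, by rw [← P_card φ, hn]⟩

theorem ee_sub_mem (h : Cfg p M B P E u b φ θ) (a : ZMod q) : MemLocalIdeal M (Cyh.ee a - 1) := by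
  obtain ⟨n, hn⟩ := q_pow h
  refine root_sub_one_mem h.hM (k := n) ?_
  rw [← hn]
  have h1 : ∀ n : ℕ, Cyh.ee a ^ n = Cyh.ee (a * (n : ZMod q)) := by
    intro n
    induction n with
    | zero => rw [pow_zero, Nat.cast_zero, mul_zero, Cyh.ee_zero]
    | succ n ih => rw [pow_succ, ih, ← Cyh.ee_add, Nat.cast_succ]; congr 1; ring
  rw [h1, CharP.cast_eq_zero, mul_zero, Cyh.ee_zero]

theorem P_ne (h : Cfg p M B P E u b φ θ) : P ≠ ⊥ := by
  rintro rfl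
  have := h.huP
  rw [Subgroup.mem_bot] at this
  have h2 := h.huo
  rw [this, orderOf_one] at h2
  exact hp.out.one_lt.ne h2

theorem q_gt (h : Cfg p M B P E u b φ θ) : 1 < q := by
  rw [← P_card φ]
  by_contra hle
  have h3 : Nat.card P = 1 := by
    have := Nat.card_pos (α := P)
    omega
  exact P_ne h (Subgroup.card_eq_one.1 h3)

theorem e_ndvd (h : Cfg p M B P E u b φ θ) : ¬ p ∣ Nat.card (HT φ (Nf P E)) := by
  rw [card_HT φ (fun t ht => (mem_Nf.1 ht).1)]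
  exact idx_ab h.hM h.hP h.htop (cyc_comm h.hc)

/-- all heights are zero -/
theorem heights (h : Cfg p M B P E u b φ θ) {χ : IrrCharacter G} (hχ : χ ∈ B) : blockHeight p B (χ : G → ℂ) = 0 := by
  classical
  haveI : Fact (1 < q) := ⟨q_gt h⟩
  haveI : Fintype (HT φ (Nf P E)) := Fintype.ofFinite _
  obtain ⟨X, Y, δ, ε, L, hs⟩ := main h
  have hs' := hs
  obtain ⟨hmem, hdis, hXc, hYc, hδ, hε, hLinj, hLY, hL1, hL2, hrel⟩ := hs'
  have hunit : ∀ d : ℤ, (d = 1 ∨ d = -1) → ¬ MemLocalIdeal M (d : ℂ) := by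
    rintro d (rfl | rfl) hd
    · rw [Int.cast_one] at hd; exact one_notMem_ideal hd
    · have := ideal_neg hd
      simp only [Int.cast_neg, Int.cast_one, neg_neg] at this
      exact one_notMem_ideal this
  rcases (hmem χ).1 hχ with hX | hY
  · have h1 := Cyh.dd_const (mu θ) χ (hδ χ hX).2 (j := 1) one_ne_zero
    refine height_of h hχ (i := 1) ?_ ?_
    · rw [h1]; exact ring_intCast _
    · rw [h1]; exact hunit _ (hδ χ hX).1
  · obtain ⟨o, rfl⟩ := (hLY χ).1 hY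
    have h1 := dd_L (free h) hs o (i := 1) one_ne_zero
    have h2 : MemLocalIdeal M (Cyh.dd (mu θ) (L o) 1 - (ε : ℂ) * (Nat.card (HT φ (Nf P E)) : ℂ)) := by
      rw [h1, ← mul_sub, Nat.card_eq_fintype_card, ← Finset.card_univ, ← nsmul_one, ← Finset.sum_const,
        ← Finset.sum_sub_distrib]
      exact ideal_mul_left (ring_intCast _) (ideal_sum _ _ fun g _ => ee_sub_mem h _)
    refine height_of h hχ (i := 1) ?_ ?_
    · rw [h1]
      exact ring_mul (ring_intCast _) (ring_sum _ _ fun g _ => memLocalRing_of_integral hMax.ne_top (ee_int _))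
    · intro hc
      have h3 := ideal_sub hc h2
      rw [sub_sub_cancel] at h3
      have h4 : MemLocalIdeal M ((Nat.card (HT φ (Nf P E)) : ℕ) : ℂ) := by
        have h5 := ideal_mul_left (ring_intCast (M := M) ε) h3
        have h6 : (ε : ℂ) * ((ε : ℂ) * (Nat.card (HT φ (Nf P E)) : ℂ)) = (Nat.card (HT φ (Nf P E)) : ℂ) := by
          rcases hε with h | h <;> rw [h] <;> push_cast <;> ring
        rw [h6] at h5
        exact h5
      rw [ideal_natCast_iff h.hM] at h4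
      exact e_ndvd h h4

/-- congruences between the degrees in X -/
theorem cong_X (h : Cfg p M B P E u b φ θ) {X Y : Finset (IrrCharacter G)} {δ : IrrCharacter G → ℤ} {ε : ℤ}
    {L : Cyh.Orb (HT φ (Nf P E)) → IrrCharacter G} (hs : Str B p (mu θ) (HT φ (Nf P E)) X Y δ ε L)
    {χ χ' : IrrCharacter G} (hχ : χ ∈ X) (hχ' : χ' ∈ X) :
    δ χ * (charDegree (χ : G → ℂ) : ℤ) ≡ δ χ' * (charDegree (χ' : G → ℂ) : ℤ) [ZMOD (q : ℤ)] := by
  obtain ⟨hmem, hdis, hXc, hYc, hδ, hε, hLinj, hLY, hL1, hL2, hrel⟩ := hs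
  have h1 := deg_dvd h (ι := Bool) (fun k => if k then δ χ' else -δ χ) (fun k => if k then χ' else χ) (by
    intro k
    cases k
    · exact (hmem χ).2 (Or.inl hχ)
    · exact (hmem χ').2 (Or.inl hχ')) (by
    intro i hi
    rw [Fintype.sum_bool]
    simp only [if_true, Bool.false_eq_true, if_false]
    rw [Cyh.dd_const (mu θ) χ (hδ χ hχ).2 hi, Cyh.dd_const (mu θ) χ' (hδ χ' hχ').2 hi]
    rcases (hδ χ hχ).1 with h1 | h1 <;> rcases (hδ χ' hχ').1 with h2 | h2 <;> rw [h1, h2] <;> push_cast <;> ring)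
  rw [Fintype.sum_bool] at h1
  simp only [if_true, Bool.false_eq_true, if_false] at h1
  rw [Int.modEq_iff_dvd]
  convert h1 using 1
  ring

/-- congruences between the degrees in X and Y -/
theorem cong_Y (h : Cfg p M B P E u b φ θ) {X Y : Finset (IrrCharacter G)} {δ : IrrCharacter G → ℤ} {ε : ℤ}
    {L : Cyh.Orb (HT φ (Nf P E)) → IrrCharacter G} (hs : Str B p (mu θ) (HT φ (Nf P E)) X Y δ ε L)
    {ψ χ : IrrCharacter G} (hψ : ψ ∈ Y) (hχ : χ ∈ X) :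
    (charDegree (ψ : G → ℂ) : ℤ) ≡ (Nat.card (HT φ (Nf P E)) : ℤ) * ε * δ χ * (charDegree (χ : G → ℂ) : ℤ) [ZMOD (q : ℤ)] := by
  classical
  haveI : Fact (1 < q) := ⟨q_gt h⟩
  haveI : Fintype (Cyh.Orb (HT φ (Nf P E))) := Fintype.ofFinite _
  have hs' := hs
  obtain ⟨hmem, hdis, hXc, hYc, hδ, hε, hLinj, hLY, hL1, hL2, hrel⟩ := hs'
  have hε2 : ε * ε = 1 := by rcases hε with h | h <;> rw [h] <;> norm_num
  have hδ2 : δ χ * δ χ = 1 := by rcases (hδ χ hχ).1 with h | h <;> rw [h] <;> norm_num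
  have h1r : ¬ p ∣ orderOf (1 : G) := by
    rw [orderOf_one]; exact fun h => hp.out.one_lt.ne' (Nat.dvd_one.1 h)
  -- all exceptional degrees agree
  have hdeg : ∀ o, (charDegree (L o : G → ℂ) : ℤ) = charDegree (ψ : G → ℂ) := by
    intro o
    obtain ⟨o', rfl⟩ := (hLY ψ).1 hψ
    have e1 := hrel o 1 h1r
    rw [← hrel o' 1 h1r, ← charDegree_eq (L o).2, ← charDegree_eq (L o').2] at e1
    have e2 : (ε : ℂ) ≠ 0 := by rcases hε with h | h <;> rw [h] <;> norm_num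
    have e3 := mul_left_cancel₀ e2 e1
    exact_mod_cast e3
  have h1 := deg_dvd h (ι := Option (Cyh.Orb (HT φ (Nf P E)))) (fun k => k.elim (ε * δ χ) (fun _ => 1))
    (fun k => k.elim χ L) (by
    intro k
    cases k with
    | none => exact (hmem χ).2 (Or.inl hχ)
    | some o => exact (hmem _).2 (Or.inr ((hLY _).2 ⟨o, rfl⟩))) (by
    intro i hi
    rw [Fintype.sum_option]
    simp only [Option.elim_none, Option.elim_some, Int.cast_one, one_mul]
    rw [Cyh.dd_const (mu θ) χ (hδ χ hχ).2 hi]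
    have h2 : ∑ o, Cyh.dd (mu θ) (L o) i = -(ε : ℂ) := by
      have h3 : ∀ o, Cyh.dd (mu θ) (L o) i = - ∑ a : ZMod q, (Cyh.vv (mu θ) (L o) a : ℂ) * Cyh.ee (a * i) :=
        fun o => Cyh.dd_eq_vv _ _ hi
      rw [Finset.sum_congr rfl fun o _ => h3 o, Finset.sum_neg_distrib, Finset.sum_comm]
      have h4 : ∀ a : ZMod q, ∑ o, (Cyh.vv (mu θ) (L o) a : ℂ) * Cyh.ee (a * i) =
          -(ε : ℂ) * Cyh.ee (i * a) + if a = 0 then (ε : ℂ) else 0 := by
        intro a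
        by_cases ha : a = 0
        · rw [ha, if_pos rfl, mul_zero, Cyh.ee_zero]
          rw [Finset.sum_eq_zero fun o _ => by rw [Cyh.vv_zero]; simp]
          ring
        · rw [if_neg ha, Finset.sum_eq_single (Cyh.om (HT φ (Nf P E)) ⟨a, ha⟩)]
          · rw [hL1 _ ⟨a, ha⟩ rfl, mul_comm a i]; push_cast; ring
          · intro o _ ho
            rw [hL2 o ⟨a, ha⟩ ho.symm]; simp
          · intro h0; exact absurd (Finset.mem_univ _) h0
      rw [Finset.sum_congr rfl fun a _ => h4 a, Finset.sum_add_distrib, ← Finset.mul_sum, Cyh.sum_ee, if_neg hi,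
        Finset.sum_ite_eq' Finset.univ (0 : ZMod q), if_pos (Finset.mem_univ _)]
      ring
    rw [h2]
    have h5 : ((ε * δ χ : ℤ) : ℂ) * (δ χ : ℂ) = (ε : ℂ) := by
      have : ((δ χ * δ χ : ℤ) : ℂ) = 1 := by rw [hδ2]; norm_num
      push_cast at this ⊢
      linear_combination (ε : ℂ) * this
    rw [h5]; ring)
  rw [Fintype.sum_option] at h1
  simp only [Option.elim_none, Option.elim_some, one_mul] at h1
  rw [Finset.sum_congr rfl fun o _ => hdeg o, Finset.sum_const, Finset.card_univ, nsmul_eq_mul,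
    ← Nat.card_eq_fintype_card] at h1
  have h2 := Cyh.card_orb (HT φ (Nf P E)) (free h)
  have h3 : (Nat.card (HT φ (Nf P E)) : ℤ) * (Nat.card (Cyh.Orb (HT φ (Nf P E))) : ℤ) = (q : ℤ) - 1 := by
    have hq := q_gt h
    have h4 : (Nat.card (HT φ (Nf P E)) * Nat.card (Cyh.Orb (HT φ (Nf P E))) : ℕ) + 1 = q := by omega
    have h5 := congrArg (fun n : ℕ => (n : ℤ)) h4
    push_cast at h5
    linarith
  rw [Int.modEq_iff_dvd]
  obtain ⟨k, hk⟩ := h1
  refine ⟨(Nat.card (HT φ (Nf P E)) : ℤ) * k - (charDegree (ψ : G → ℂ) : ℤ), ?_⟩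
  have h4 : (Nat.card (HT φ (Nf P E)) : ℤ) * (ε * δ χ * (charDegree (χ : G → ℂ) : ℤ) +
      (Nat.card (Cyh.Orb (HT φ (Nf P E))) : ℤ) * (charDegree (ψ : G → ℂ) : ℤ)) =
      (Nat.card (HT φ (Nf P E)) : ℤ) * ((q : ℤ) * k) := by rw [hk]
  linear_combination h4 - (charDegree (ψ : G → ℂ) : ℤ) * h3

end concl

end Cfsg.Agent.H25.Czb
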