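import Mathlib
import Cfsg.Agent.H25_Czb
import Cfsg.Agent.H25_Cyk2

/-!
H25_Czc: the theorem on blocks with cyclic defect groups in final form.
-/

set_option autoImplicit false
set_option linter.unusedSectionVars false

open scoped ComplexConjugate

namespace Cfsg.Agent.H25.Czc

open Cfsg Cfsg.Agent.H3 Cfsg.Agent.H3.CharIrr Cfsg.Agent.H3.CharComplete Cfsg.Agent.H3.CharBasic
  Cfsg.Agent.H10.BlockLoc Cfsg.Agent.H10.BlockAlg Cfsg.Agent.H10.BlockIdem Cfsg.Agent.H10.Char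
  Cfsg.Agent.H10.BlockSMT Cfsg.Agent.H10.BlockSMT2 Cfsg.Agent.H10.BlockTrace Cfsg.Agent.H10.BlockDefect
  Cfsg.Agent.H10.BlockMain Cfsg.Agent.H10.BlockHZ Cfsg.Agent.H10.BlockOrth
  Cfsg.Agent.H10.PPart Cfsg.Agent.H25.IndCong Cfsg.Agent.H25.Red Cfsg.Agent.H25.KG Cfsg.Agent.H25.Up
  Cfsg.Agent.H25.BPTr Cfsg.Agent.H25.BPMain Cfsg.Agent.H25.BPDef Cfsg.Agent.H25.Fus Cfsg.Agent.H25.Nilp
  Cfsg.Agent.H25.NilpAb Cfsg.Agent.H25.Rel Cfsg.Agent.H25.FMT Cfsg.Agent.H25.Sub Cfsg.Agent.H25.Sub2 Cfsg.Agent.H25.Cyk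
  Cfsg.Agent.H25.Cys Cfsg.Agent.H25.Cyn Cfsg.Agent.H25.Cyi Cfsg.Agent.H25.Cyx Cfsg.Agent.H25.Cyy Cfsg.Agent.H25.Cyz
  Cfsg.Agent.H25.Cza Cfsg.Agent.H25.Czb

variable {p : ℕ} {M : Ideal AlgInt} {G : Type*} [Group G] [Fintype G] [hMax : M.IsMaximal]
  [hp : Fact p.Prime] [hch : CharP (KM M) p]

theorem T_eq {D : Subgroup G} {b : Set (IrrCharacter (Subgroup.centralizer (D : Set G)))} (hb : IsPBlock M b)
    {T : Subgroup G} (hT : ∀ g : G, g ∈ T ↔ (g ∈ Subgroup.normalizer (D : Set G) ∧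
      ∀ θ ∈ b, ∀ θ' : IrrCharacter (Subgroup.centralizer (D : Set G)),
        (∀ h h' : Subgroup.centralizer (D : Set G), (h' : G) = g * h * g⁻¹ →
          (θ' : Subgroup.centralizer (D : Set G) → ℂ) h' = (θ : Subgroup.centralizer (D : Set G) → ℂ) h) → θ' ∈ b)) :
    T = Nf D (ep M (Ce D) b) := by
  ext g
  rw [hT, mem_Nf]
  apply and_congr_right
  intro hg
  have hK : Ce D = cs g (Ce D) := (mem_normalizer_iff_cs.1 (norm_le_norm_Ce D hg)).symm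
  haveI : Fintype (Ce D) := Fintype.ofFinite _
  constructor
  · intro h
    obtain ⟨χ, hχ⟩ := block_nonempty hb
    have h1 : H10.BlockEFM.tr (cI g hK).symm χ ∈ tB (cI g hK) b := tr_mem_tB _ hχ
    have h2 : H10.BlockEFM.tr (cI g hK).symm χ ∈ b := by
      refine h χ hχ _ ?_
      intro k k' hk
      rw [H10.BlockEFM.tr_apply]
      have h3 : k' = cI g hK k := Subtype.ext hk
      rw [h3, MulEquiv.symm_apply_apply]
    have h3 := block_eq_of_mem (isPBlock_tB (cI g hK) hb) hb h1 h2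
    rw [← ep_conj g hK, h3]
  · intro h θ hθ θ' hθ'
    have h1 : tB (cI g hK) b = b := by
      refine ep_inj (isPBlock_tB (cI g hK) hb) hb ?_
      rw [ep_conj, h]
    rw [← h1]
    exact ⟨θ, hθ, fun k => hθ' k _ rfl⟩

theorem core (hM : IsPModular p M) {D : Subgroup G} (hD : IsCyclic D) {a : ℕ} (ha : 1 ≤ a) (hDa : Nat.card D = p ^ a)
    {B : Set (IrrCharacter G)} (hB : IsPBlock M B) (hBD : IsDefectGroup p M B D)
    {b : Set (IrrCharacter (Subgroup.centralizer (D : Set G)))}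
    (hind : IsInducedBlock M (Subgroup.centralizer (D : Set G)) b B) {T : Subgroup G}
    (hT : ∀ g : G, g ∈ T ↔ (g ∈ Subgroup.normalizer (D : Set G) ∧
      ∀ θ ∈ b, ∀ θ' : IrrCharacter (Subgroup.centralizer (D : Set G)),
        (∀ h h' : Subgroup.centralizer (D : Set G), (h' : G) = g * h * g⁻¹ →
          (θ' : Subgroup.centralizer (D : Set G) → ℂ) h' = (θ : Subgroup.centralizer (D : Set G) → ℂ) h) → θ' ∈ b))
    {e : ℕ} (he : (Subgroup.centralizer (D : Set G)).relIndex T = e) :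
    e ∣ p - 1 ∧ 0 < e ∧ e ≤ blockRank p B ∧ (∀ χ ∈ B, blockHeight p B (χ : G → ℂ) = 0) ∧
      ∃ (X Y : Finset (IrrCharacter G)) (δ : IrrCharacter G → ℤ) (ε : ℤ),
        (∀ χ, χ ∈ B ↔ χ ∈ X ∨ χ ∈ Y) ∧ Disjoint X Y ∧ X.card = e ∧ e * Y.card = p ^ a - 1 ∧
        (∀ χ ∈ X, δ χ = 1 ∨ δ χ = -1) ∧ (ε = 1 ∨ ε = -1) ∧
        (∀ ψ ∈ Y, ∀ g, ¬ p ∣ orderOf g → (ε : ℂ) * (ψ : G → ℂ) g = ∑ χ ∈ X, (δ χ : ℂ) * (χ : G → ℂ) g) ∧
        (∀ χ ∈ X, ∀ χ' ∈ X, δ χ * (charDegree (χ : G → ℂ) : ℤ) ≡ δ χ' * (charDegree (χ' : G → ℂ) : ℤ) [ZMOD (p : ℤ) ^ a]) ∧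
        (∀ ψ ∈ Y, ∀ χ ∈ X, (charDegree (ψ : G → ℂ) : ℤ) ≡ (e : ℤ) * ε * δ χ * (charDegree (χ : G → ℂ) : ℤ) [ZMOD (p : ℤ) ^ a]) := by
  classical
  obtain ⟨hbb, hbp, htop⟩ := data hM hB hBD hind
  have hTeq := T_eq hbb hT
  have hD1 : D ≠ ⊥ := by
    rintro rfl
    rw [Subgroup.card_bot] at hDa
    have := Nat.one_lt_pow (n := a) (by omega) hp.out.one_lt
    omega
  haveI : NeZero (p ^ a) := ⟨(pow_pos hp.out.pos a).ne'⟩
  obtain ⟨φ⟩ : Nonempty (Multiplicative (ZMod (p ^ a)) ≃* D) := by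
    rw [← hDa]
    exact ⟨zmodCyclicMulEquiv hD⟩
  obtain ⟨u, huD, huo⟩ : ∃ u ∈ D, orderOf u = p := by
    have h1 : p ∣ Nat.card D := by rw [hDa]; exact dvd_pow_self p (by omega)
    obtain ⟨x, hx⟩ := exists_prime_orderOf_dvd_card' p h1
    exact ⟨x, x.2, by rwa [Subgroup.orderOf_coe]⟩
  obtain ⟨b', θ, h⟩ := exists_cfg hM hB hbp htop hD huD huo φ
  obtain ⟨X, Y, δ, ε, L, hs⟩ := main h
  have hTN : Nf D (ep M (Ce D) b) ≤ Nm D := fun t ht => (mem_Nf.1 ht).1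
  have hcard : Nat.card (HT φ (Nf D (ep M (Ce D) b))) = e := by
    rw [card_HT φ hTN, ← hTeq]; exact he
  have hs' := hs
  obtain ⟨hmem, hdis, hXc, hYc, hδ, hε, hLinj, hLY, hL1, hL2, hrel⟩ := hs'
  have hdiv : e ∣ p - 1 := by
    have hCT : Ce D ≤ T := by rw [hTeq]; exact Ce_le_Nf hbp.be
    haveI : ((Subgroup.centralizer (D : Set G)).subgroupOf T).Normal := by
      refine ⟨fun c hc t => ?_⟩
      have ht : (t : G) ∈ Nf D (ep M (Ce D) b) := hTeq.le t.2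
      have h1 := norm_le_norm_Ce D (mem_Nf.1 ht).1
      exact (Subgroup.mem_normalizer_iff.1 h1 c).1 hc
    rw [← he]
    exact (quot_cyc hM hbp htop hD hD1 hTeq).2
  refine ⟨hdiv, ?_, ?_, fun χ hχ => heights h hχ, X, Y, δ, ε, hmem, hdis, by rw [hXc, hcard], ?_, fun χ hχ => (hδ χ hχ).1,
    hε, ?_, ?_, ?_⟩
  · rw [← hcard]; exact Nat.card_pos
  · rw [← hcard, card_HT φ hTN]
    exact Cyw.lower' hM hB hbp htop hD hD1
  · rw [hYc, ← hcard]
    exact Cyh.card_orb _ (free h)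
  · intro ψ hψ g hg
    obtain ⟨o, rfl⟩ := (hLY ψ).1 hψ
    exact hrel o g hg
  · intro χ hχ χ' hχ'
    have := cong_X h hs hχ hχ'
    rw [Nat.cast_pow] at this
    exact this
  · intro ψ hψ χ hχ
    have := cong_Y h hs hψ hχ
    rw [Nat.cast_pow, hcard] at this
    exact this

/-- the upper bound for the rank -/
theorem rank_le {B : Set (IrrCharacter G)} {X Y : Finset (IrrCharacter G)} {δ : IrrCharacter G → ℤ} {ε : ℤ}
    (hmem : ∀ χ, χ ∈ B ↔ χ ∈ X ∨ χ ∈ Y) (hε : ε = 1 ∨ ε = -1)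
    (hrel : ∀ ψ ∈ Y, ∀ g, ¬ p ∣ orderOf g → (ε : ℂ) * (ψ : G → ℂ) g = ∑ χ ∈ X, (δ χ : ℂ) * (χ : G → ℂ) g) :
    blockRank p B ≤ X.card := by
  classical
  have h1 : Submodule.span ℂ ((fun χ : IrrCharacter G => pRegularPart p (χ : G → ℂ)) '' B) ≤
      Submodule.span ℂ ((X.image (fun χ : IrrCharacter G => pRegularPart p (χ : G → ℂ)) : Finset (G → ℂ)) : Set (G → ℂ)) := by
    rw [Submodule.span_le]
    rintro _ ⟨χ, hχ, rfl⟩
    have hX : ∀ χ ∈ X, pRegularPart p (χ : G → ℂ) ∈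
        Submodule.span ℂ ((X.image (fun χ : IrrCharacter G => pRegularPart p (χ : G → ℂ)) : Finset (G → ℂ)) : Set (G → ℂ)) := by
      intro χ hχ
      apply Submodule.subset_span
      rw [Finset.mem_coe, Finset.mem_image]
      exact ⟨χ, hχ, rfl⟩
    rcases (hmem χ).1 hχ with h | h
    · exact hX χ h
    · have h2 : pRegularPart p (χ : G → ℂ) = (ε : ℂ) • ∑ ξ ∈ X, (δ ξ : ℂ) • pRegularPart p (ξ : G → ℂ) := by
        funext g
        rw [Pi.smul_apply, Finset.sum_apply]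
        simp only [Pi.smul_apply, smul_eq_mul]
        unfold pRegularPart
        by_cases hg : IsPRegular p g
        · rw [if_pos hg]
          have h3 : ∀ ξ ∈ X, (δ ξ : ℂ) * (if IsPRegular p g then (ξ : G → ℂ) g else 0) = (δ ξ : ℂ) * (ξ : G → ℂ) g := by
            intro ξ _
            rw [if_pos hg]
          rw [Finset.sum_congr rfl h3, ← hrel χ h g hg, ← mul_assoc]
          rcases hε with h4 | h4 <;> rw [h4] <;> push_cast <;> ring
        · rw [if_neg hg]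
          rw [Finset.sum_eq_zero, mul_zero]
          intro ξ _
          rw [if_neg hg, mul_zero]
      show pRegularPart p (χ : G → ℂ) ∈ _
      rw [h2]
      exact Submodule.smul_mem _ _ (Submodule.sum_mem _ fun ξ hξ => Submodule.smul_mem _ _ (hX ξ hξ))
  have h2 : blockRank p B = Module.finrank ℂ (Submodule.span ℂ ((fun χ : IrrCharacter G => pRegularPart p (χ : G → ℂ)) '' B)) := rfl
  rw [h2]
  refine (Submodule.finrank_mono h1).trans ?_
  exact (finrank_span_finset_le_card _).trans Finset.card_image_le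

end Cfsg.Agent.H25.Czc
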