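import Mathlib
import Cfsg.Agent.H25_Czc

/-!
H25_Czd: values of generalized characters vanishing on singular elements.
-/

set_option autoImplicit false
set_option linter.unusedSectionVars false

open scoped ComplexConjugate

namespace Cfsg.Agent.H25.Czd

open Cfsg Cfsg.Agent.H3 Cfsg.Agent.H3.CharIrr Cfsg.Agent.H3.CharComplete Cfsg.Agent.H3.CharBasic
  Cfsg.Agent.H10.BlockLoc

section fix

variable {G : Type*} [Group G] [Fintype G]

theorem isChar_comp {H : Type*} [Group H] (f : H →* G) {χ : G → ℂ} (h : IsCharacter G χ) :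
    IsCharacter H (fun x => χ (f x)) := by
  obtain ⟨n, ρ, rfl⟩ := h
  exact isCharacter_of_rep (ρ.comp f)

/-- the average over a commuting subgroup -/
theorem avg_int {χ : G → ℂ} (hχ : IsCharacter G χ) {s : G} {S : Subgroup G} (hS : ∀ t ∈ S, Commute s t) [Fintype S] :
    IsIntegral ℤ ((Nat.card S : ℂ)⁻¹ * ∑ t : S, χ (s * t)) := by
  classical
  haveI : Fintype (Subgroup.zpowers s) := Fintype.ofFinite _
  haveI : Fintype (IrrCharacter (Subgroup.zpowers s)) := Fintype.ofFinite _
  set f : Subgroup.zpowers s → ℂ := fun a => (Nat.card S : ℂ)⁻¹ * ∑ t : S, χ ((a : G) * t) with hf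
  have hcm : ∀ (a : Subgroup.zpowers s) (t : S), Commute ((Subgroup.zpowers s).subtype a) (S.subtype t) := by
    rintro ⟨a, k, rfl⟩ t
    exact (hS t t.2).zpow_left k
  have hcl : IsClassFunction (Subgroup.zpowers s) f := by
    intro x y
    have : y * x * y⁻¹ = x := by
      obtain ⟨x, k, rfl⟩ := x
      obtain ⟨y, l, rfl⟩ := y
      apply Subtype.ext
      change s ^ l * s ^ k * (s ^ l)⁻¹ = s ^ k
      rw [← zpow_add, add_comm, zpow_add, mul_inv_cancel_right]
    rw [this]
  have h1 := expand_apply f hcl ⟨s, Subgroup.mem_zpowers s⟩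
  have h2 : f ⟨s, Subgroup.mem_zpowers s⟩ = (Nat.card S : ℂ)⁻¹ * ∑ t : S, χ (s * t) := rfl
  rw [← h2, h1]
  refine IsIntegral.sum _ fun lam _ => IsIntegral.mul ?_ (IsChar.isIntegral (IsIrr.isCharacter lam.2) _)
  let m : Subgroup.zpowers s × S →* G := MonoidHom.noncommCoprod (Subgroup.zpowers s).subtype S.subtype hcm
  have h3 : IsCharacter (Subgroup.zpowers s × S) (fun x => χ (m x)) := isChar_comp m hχ
  have h4 : IsCharacter (Subgroup.zpowers s × S) (fun x => (lam : Subgroup.zpowers s → ℂ) x.1) :=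
    isChar_comp (MonoidHom.fst (Subgroup.zpowers s) S) (IsIrr.isCharacter lam.2)
  obtain ⟨n, hn⟩ := ci_char_nat h3 h4
  have h5 : classInner f (lam : Subgroup.zpowers s → ℂ) = (n : ℂ) := by
    rw [← hn, classInner, classInner, Fintype.sum_prod_type, Nat.card_prod, Nat.cast_mul, mul_inv, mul_assoc]
    congr 1
    rw [Finset.mul_sum]
    refine Finset.sum_congr rfl fun a _ => ?_
    simp only [hf]
    rw [mul_assoc, Finset.sum_mul]
    rfl
  rw [h5]
  exact isIntegral_algebraMap (R := ℤ) (A := ℂ) (x := (n : ℤ))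

variable {p : ℕ} {M : Ideal AlgInt} [hMax : M.IsMaximal] [hp : Fact p.Prime]

/-- values of a generalized character vanishing on the singular elements -/
theorem proj_val (hM : IsPModular p M) {ι : Type*} [Fintype ι] (c : ι → ℂ) (hc : ∀ k, IsIntegral ℤ (c k))
    (χ : ι → G → ℂ) (hχ : ∀ k, IsCharacter G (χ k)) (hv : ∀ x, p ∣ orderOf x → ∑ k, c k * χ k x = 0) (s : G) :
    MemLocalRing M ((∑ k, c k * χ k s) / (Nat.card (Subgroup.centralizer ({s} : Set G)) : ℂ)) := by
  classical
  by_cases hs : p ∣ orderOf s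
  · rw [hv s hs, zero_div]; exact ring_zero
  · obtain ⟨Sy⟩ : Nonempty (Sylow p (Subgroup.centralizer ({s} : Set G))) := inferInstance
    set S : Subgroup G := (Sy : Subgroup (Subgroup.centralizer ({s} : Set G))).map
      (Subgroup.centralizer ({s} : Set G)).subtype with hSdef
    haveI : Fintype S := Fintype.ofFinite _
    have hcS : Nat.card S = Nat.card Sy := Subgroup.card_map_of_injective (Subgroup.subtype_injective _)
    have hSc : ∀ t ∈ S, Commute s t := by
      rintro _ ⟨t, -, rfl⟩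
      exact (Subgroup.mem_centralizer_iff.1 t.2 s (Set.mem_singleton s))
    have hSp : ∀ t ∈ S, t ≠ 1 → p ∣ orderOf (s * t) := by
      intro t ht ht1
      have h1 : IsPGroup p S := by rw [hSdef]; exact Sy.2.map _
      obtain ⟨k, hk⟩ := IsPGroup.iff_orderOf.1 h1 ⟨t, ht⟩
      rw [Subgroup.orderOf_mk] at hk
      have hk0 : k ≠ 0 := by
        rintro rfl
        rw [pow_zero, orderOf_eq_one_iff] at hk
        exact ht1 hk
      rw [(hSc t ht).orderOf_mul_eq_mul_orderOf_of_coprime]
      · rw [hk]; exact dvd_mul_of_dvd_right (dvd_pow_self p hk0) _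
      · rw [hk]; exact Nat.Coprime.pow_right _ ((hp.out.coprime_iff_not_dvd.2 hs).symm)
    have h1 : ∑ k, c k * ((Nat.card S : ℂ)⁻¹ * ∑ t : S, χ k (s * t)) = (Nat.card S : ℂ)⁻¹ * ∑ k, c k * χ k s := by
      have e1 : ∑ k, c k * ((Nat.card S : ℂ)⁻¹ * ∑ t : S, χ k (s * t)) =
          (Nat.card S : ℂ)⁻¹ * ∑ t : S, ∑ k, c k * χ k (s * t) := by
        rw [Finset.sum_comm, Finset.mul_sum]
        refine Finset.sum_congr rfl fun k _ => ?_
        rw [← Finset.mul_sum]; ring
      rw [e1, Finset.sum_eq_single (1 : S)]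
      · rw [Subgroup.coe_one, mul_one]
      · intro t _ ht
        exact hv _ (hSp t t.2 (fun h => ht (Subtype.ext h)))
      · intro h; exact absurd (Finset.mem_univ _) h
    have h2 : IsIntegral ℤ ((Nat.card S : ℂ)⁻¹ * ∑ k, c k * χ k s) := by
      rw [← h1]
      exact IsIntegral.sum _ fun k _ => (hc k).mul (avg_int (hχ k) hSc)
    obtain ⟨m, hm⟩ : Nat.card Sy ∣ Nat.card (Subgroup.centralizer ({s} : Set G)) := Subgroup.card_subgroup_dvd_card _
    have hmp : ¬ p ∣ m := by
      have h3 := Sy.not_dvd_index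
      have h4 := (Sy : Subgroup (Subgroup.centralizer ({s} : Set G))).card_mul_index
      have h5 : m = (Sy : Subgroup (Subgroup.centralizer ({s} : Set G))).index := by
        have h6 : Nat.card Sy * m = Nat.card Sy * (Sy : Subgroup (Subgroup.centralizer ({s} : Set G))).index := by
          rw [← hm, ← h4]
        exact Nat.eq_of_mul_eq_mul_left Nat.card_pos h6
      rw [h5]; exact h3
    have h3 : (∑ k, c k * χ k s) / (Nat.card (Subgroup.centralizer ({s} : Set G)) : ℂ) =
        ((Nat.card S : ℂ)⁻¹ * ∑ k, c k * χ k s) * ((m : ℕ) : ℂ)⁻¹ := by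
      rw [hm, hcS]
      push_cast
      rw [div_eq_mul_inv, mul_inv]; ring
    rw [h3]
    exact ring_mul (memLocalRing_of_integral hMax.ne_top h2) (ring_inv_natCast hM hmp)

end fix

end Cfsg.Agent.H25.Czd
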