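import Mathlib
import Cfsg.Agent.H25_Czd

/-!
H25_Cze: centralizer divisibility of the transforms of the family.
-/

set_option autoImplicit false
set_option linter.unusedSectionVars false

open scoped ComplexConjugate

namespace Cfsg.Agent.H25.Cze

open Cfsg Cfsg.Agent.H3 Cfsg.Agent.H3.CharIrr Cfsg.Agent.H3.CharComplete Cfsg.Agent.H3.CharBasic
  Cfsg.Agent.H10.BlockLoc Cfsg.Agent.H10.BlockAlg Cfsg.Agent.H10.BlockIdem Cfsg.Agent.H10.Char
  Cfsg.Agent.H10.BlockSMT Cfsg.Agent.H10.BlockSMT2 Cfsg.Agent.H10.BlockTrace Cfsg.Agent.H10.BlockDefect Cfsg.Agent.H10.BlockMain Cfsg.Agent.H10.BlockHZ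
  Cfsg.Agent.H10.BlockOrth
  Cfsg.Agent.H10.PPart Cfsg.Agent.H25.IndCong Cfsg.Agent.H25.Red Cfsg.Agent.H25.KG
  Cfsg.Agent.H25.BPTr Cfsg.Agent.H25.BPMain Cfsg.Agent.H25.BPDef Cfsg.Agent.H25.Fus Cfsg.Agent.H25.Nilp
  Cfsg.Agent.H25.NilpAb Cfsg.Agent.H25.Sub Cfsg.Agent.H25.Sub2 Cfsg.Agent.H25.Cyk
  Cfsg.Agent.H25.STa Cfsg.Agent.H25.STb Cfsg.Agent.H25.STc Cfsg.Agent.H25.STd
  Cfsg.Agent.H25.STe Cfsg.Agent.H25.STf Cfsg.Agent.H25.STg Cfsg.Agent.H25.STh Cfsg.Agent.H25.STi
  Cfsg.Agent.H25.STj Cfsg.Agent.H25.STk Cfsg.Agent.H25.STl Cfsg.Agent.H25.STm Cfsg.Agent.H25.STn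
  Cfsg.Agent.H25.STo Cfsg.Agent.H25.STp Cfsg.Agent.H25.STq Cfsg.Agent.H25.STr Cfsg.Agent.H25.Cys
  Cfsg.Agent.H25.Cyn Cfsg.Agent.H25.Cyi Cfsg.Agent.H25.Cyx Cfsg.Agent.H25.Cyy Cfsg.Agent.H25.Czd

section lev

variable {p : ℕ} {M : Ideal AlgInt} {G : Type*} [Group G] [Fintype G] [hMax : M.IsMaximal]
  [hp : Fact p.Prime] [hch : CharP (KM M) p] {P : Subgroup G} {E : MonoidAlgebra (KM M) G}
  {B : Set (IrrCharacter G)}

theorem nil_proj (hM : IsPModular p M) {b : Set (IrrCharacter G)} (hb : IsPBlock M b)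
    (hag : ∀ φ ∈ b, ∀ φ' ∈ b, ∀ y : G, ¬ p ∣ orderOf y → (φ : G → ℂ) y = (φ' : G → ℂ) y)
    {ψ : IrrCharacter G} (hψ : ψ ∈ b) {y : G} (hy : ¬ p ∣ orderOf y) :
    MemLocalRing M ((Nat.card b : ℂ) * (ψ : G → ℂ) y / (Nat.card (Subgroup.centralizer ({y} : Set G)) : ℂ)) := by
  classical
  haveI : Fintype (IrrCharacter G) := Fintype.ofFinite _
  haveI : Fintype b := Fintype.ofFinite _
  have hp1 : ¬ p ∣ orderOf (1 : G) := by
    rw [orderOf_one, Nat.dvd_one]; exact hM.1.one_lt.ne'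
  have hv : ∀ x, p ∣ orderOf x → ∑ k : b, (1 : ℂ) * ((k : IrrCharacter G) : G → ℂ) x = 0 := by
    intro x hx
    have h1 := weak_orth hM hb 1 x hp1 hx
    have h2 : ∑ χ : IrrCharacter G, (if χ ∈ b then (χ : G → ℂ) 1 * conj ((χ : G → ℂ) x) else 0) =
        (ψ : G → ℂ) 1 * conj (∑ k : b, (1 : ℂ) * ((k : IrrCharacter G) : G → ℂ) x) := by
      rw [← Finset.sum_filter, map_sum, Finset.mul_sum,
        Finset.sum_subtype (Finset.univ.filter fun χ => χ ∈ b) (p := fun χ => χ ∈ b) (fun χ => by simp)]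
      refine Finset.sum_congr rfl fun χ _ => ?_
      rw [one_mul, hag χ.1 χ.2 ψ hψ 1 hp1]
    rw [h1] at h2
    have h3 := (mul_eq_zero.1 h2.symm).resolve_left (by rw [← charDegree_eq ψ.2]; exact_mod_cast (charDegree_pos ψ.2).ne')
    rw [map_eq_zero] at h3
    exact h3
  have h4 := proj_val hM (fun _ : b => (1 : ℂ)) (fun _ => isIntegral_one) (fun k : b => ((k : IrrCharacter G) : G → ℂ))
    (fun k => IsIrr.isCharacter (k : IrrCharacter G).2) hv y
  have h5 : ∑ k : b, (1 : ℂ) * ((k : IrrCharacter G) : G → ℂ) y = (Nat.card b : ℂ) * (ψ : G → ℂ) y := by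
    rw [Finset.sum_congr rfl fun (k : b) _ => by rw [one_mul, hag k k.2 ψ hψ y hy], Finset.sum_const, Finset.card_univ,
      nsmul_eq_mul, Nat.card_eq_fintype_card]
  rw [h5] at h4
  exact h4

open Classical in
/-- the transforms as values of the twisting -/
theorem F_st (hM : IsPModular p M) (hP : BP p (epG M B) P E) (htop : KG.Top p P E)
    (hn : Nilp p (epG M B)) {q : ℕ} [NeZero q] (φ : Multiplicative (ZMod q) ≃* P) {χ₀ : IrrCharacter G}
    {χ : ZMod q → IrrCharacter G}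
    (hχst : ∀ a, ∀ [Fintype P], st p P E (xf P (lam φ a : P → ℂ)) (χ₀ : G → ℂ) = (χ a : G → ℂ))
    (i : ZMod q) (g : G) : st p P E (fun x => if x = wp φ i then (q : ℂ) else 0) (χ₀ : G → ℂ) g =
      ∑ a, Cyh.ee (-(a * i)) * (χ a : G → ℂ) g := by
  classical
  letI : Fintype P := Fintype.ofFinite _
  have hab : ∀ x ∈ P, ∀ y ∈ P, x * y = y * x := fun x hx y hy =>
    congrArg Subtype.val (P_comm φ ⟨x, hx⟩ ⟨y, hy⟩)
  have hst : ∀ η : G → ℂ, Stab p P E η := stab_ab hM hP htop hn hab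
  have hcl := IsIrr.isClass χ₀.2
  have h1 : (fun x => ∑ a : ZMod q, Cyh.ee (-(a * i)) * xf P (lam φ a : P → ℂ) x) =
      (fun x => if x = wp φ i then (q : ℂ) else 0) := by
    funext x
    by_cases hx : x ∈ P
    · obtain ⟨j, rfl⟩ := wp_surj φ hx
      have h2 : ∀ a : ZMod q, Cyh.ee (-(a * i)) * xf P (lam φ a : P → ℂ) (wp φ j) = Cyh.ee ((j - i) * a) := by
        intro a
        rw [xf_lam, ← Cyh.ee_add]
        congr 1; ring
      rw [Finset.sum_congr rfl fun a _ => h2 a, Cyh.sum_ee]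
      by_cases hij : j - i = 0
      · rw [if_pos hij, if_pos (by rw [sub_eq_zero.1 hij])]
      · rw [if_neg hij, if_neg (fun h => hij (by rw [wp_inj φ h]; ring))]
    · have h2 : ∀ a : ZMod q, xf P (lam φ a : P → ℂ) x = 0 := fun a => by unfold xf; rw [dif_neg hx]
      rw [if_neg (fun h => hx (by rw [h]; exact wp_mem φ _))]
      exact Finset.sum_eq_zero fun a _ => by rw [h2, mul_zero]
  have h3 := st_sum (P := P) (E := E) hM Finset.univ (fun a : ZMod q => Cyh.ee (-(a * i))) (fun a => xf P (lam φ a : P → ℂ))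
    (fun a _ => hst _) hcl
  rw [h1] at h3
  have h5 := congrFun h3 g
  rw [Finset.sum_apply] at h5
  simp only [Pi.smul_apply, smul_eq_mul] at h5
  rw [h5]
  exact Finset.sum_congr rfl fun a _ => by rw [hχst]

/-- the value of a section part of a character on regular elements -/
theorem bp_val {z : G} [Fintype (Subgroup.centralizer ({z} : Set G))] {β : Set (IrrCharacter (Subgroup.centralizer ({z} : Set G)))}
    (hag : ∀ φ ∈ β, ∀ φ' ∈ β, ∀ y : Subgroup.centralizer ({z} : Set G), ¬ p ∣ orderOf y →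
      (φ : Subgroup.centralizer ({z} : Set G) → ℂ) y = (φ' : Subgroup.centralizer ({z} : Set G) → ℂ) y)
    {ψ : IrrCharacter (Subgroup.centralizer ({z} : Set G))} (hψ : ψ ∈ β) (χ : IrrCharacter G) :
    ∃ κ : ℂ, IsIntegral ℤ κ ∧ ∀ y : Subgroup.centralizer ({z} : Set G), ¬ p ∣ orderOf y →
      bp z β (χ : G → ℂ) y = κ * (ψ : Subgroup.centralizer ({z} : Set G) → ℂ) y := by
  classical
  haveI : Fintype (IrrCharacter (Subgroup.centralizer ({z} : Set G))) := Fintype.ofFinite _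
  have hs : z ∈ Ce (Subgroup.centralizer ({z} : Set G)) := by
    rw [Ce, Subgroup.mem_centralizer_iff]
    intro x hx
    exact (Subgroup.mem_centralizer_iff.1 hx z (Set.mem_singleton z)).symm
  have h1 := shift_IntSpan (Q := Subgroup.centralizer ({z} : Set G)) (IsIrr.isCharacter χ.2) hs
  have h2 : (fun c : Subgroup.centralizer ({z} : Set G) => (χ : G → ℂ) (z * (c : G))) =
      (fun c : Subgroup.centralizer ({z} : Set G) => (χ : G → ℂ) ((c : G) * z)) := by
    funext c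
    rw [Subgroup.mem_centralizer_iff.1 c.2 z (Set.mem_singleton z)]
  refine ⟨∑ ξ : IrrCharacter (Subgroup.centralizer ({z} : Set G)), (if ξ ∈ β then
      classInner (fun c : Subgroup.centralizer ({z} : Set G) => (χ : G → ℂ) ((c : G) * z)) (ξ : Subgroup.centralizer ({z} : Set G) → ℂ) else 0), ?_, ?_⟩
  · refine IsIntegral.sum _ fun ξ _ => ?_
    by_cases h : ξ ∈ β
    · rw [if_pos h]; exact h1.2 _ ξ.2
    · rw [if_neg h]; exact isIntegral_zero
  · intro y hy
    unfold bp blockPart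
    have e : (Fintype.ofFinite (Subgroup.centralizer ({z} : Set G))) = (inferInstance : Fintype (Subgroup.centralizer ({z} : Set G))) := Subsingleton.elim _ _
    rw [e, finsum_mem_irr, Finset.sum_mul]
    refine Finset.sum_congr rfl fun ξ _ => ?_
    by_cases h : ξ ∈ β
    · rw [if_pos h, if_pos h, h2, hag ξ h ψ hψ y hy]
    · rw [if_neg h, if_neg h, zero_mul]

/-- the block of the centralizer of an element of the defect group -/
theorem loc_block (hM : IsPModular p M) {B' : MonoidAlgebra (KM M) G} (hP : BP p B' P E) (htop : KG.Top p P E) (hc : IsCyclic P)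
    {z : G} (hz : z ∈ P) (hz1 : z ≠ 1) : ∃ β : Set (IrrCharacter (Subgroup.centralizer ({z} : Set G))),
      IsPBlock M β ∧ LE p (Subgroup.zpowers z) (ep M (Subgroup.centralizer ({z} : Set G)) β) P E ∧
      (∀ φ ∈ β, ∀ φ' ∈ β, ∀ y : Subgroup.centralizer ({z} : Set G), ¬ p ∣ orderOf y →
        (φ : Subgroup.centralizer ({z} : Set G) → ℂ) y = (φ' : Subgroup.centralizer ({z} : Set G) → ℂ) y) ∧
      Nat.card β = Nat.card P ∧ β.Nonempty := by
  classical
  have hab := cyc_comm hc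
  have key : ∀ L : Subgroup G, L = Ce (Subgroup.zpowers z) → ∃ β : Set (IrrCharacter L),
      IsPBlock M β ∧ LE p (Subgroup.zpowers z) (ep M L β) P E ∧
      (∀ φ ∈ β, ∀ φ' ∈ β, ∀ y : L, ¬ p ∣ orderOf y → (φ : L → ℂ) y = (φ' : L → ℂ) y) ∧
      Nat.card β = Nat.card P ∧ β.Nonempty := by
    rintro _ rfl
    haveI : Fintype (Ce (Subgroup.zpowers z)) := Fintype.ofFinite _
    obtain ⟨f, -, hle⟩ := le_exists hP.pg hP.be (Subgroup.zpowers_le.2 hz)
    obtain ⟨b, hb, hbf, hnil, -⟩ := Cyg.rank_cent hM hP htop hc hle (by rwa [Ne, Subgroup.zpowers_eq_bot])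
    subst hbf
    obtain ⟨h1, h2⟩ := Cyj.agree hM hnil ((defectH_iff' hM hb (le_Ce_ab hab hle.le)).2
      (dgh_ab hM hP htop hab hle)) (by
        rintro ⟨⟨x, hx⟩, hx'⟩ ⟨⟨y, hy⟩, hy'⟩
        exact Subtype.ext (Subtype.ext (hab x hx' y hy')))
    refine ⟨b, hb, hle, h1, ?_, ?_⟩
    · rw [h2]
      exact Nat.card_congr (Subgroup.subgroupOfEquivOfLe (le_Ce_ab hab hle.le)).toEquiv
    · obtain ⟨ψ, hψ, -⟩ := exists_height_zero (p := p) hb
      exact ⟨ψ, hψ⟩
  exact key _ (AbSec.Ce_zp z).symm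

/-- the transforms are divisible by the centralizer orders -/
theorem PJ_lev (hM : IsPModular p M) (hP : BP p (epG M B) P E) (htop : KG.Top p P E)
    (hn : Nilp p (epG M B)) (hc : IsCyclic P) {q : ℕ} [NeZero q] (φ : Multiplicative (ZMod q) ≃* P) {χ₀ : IrrCharacter G}
    {χ : ZMod q → IrrCharacter G}
    (hχst : ∀ a, ∀ [Fintype P], st p P E (xf P (lam φ a : P → ℂ)) (χ₀ : G → ℂ) = (χ a : G → ℂ))
    (i : ZMod q) (g : G) :
    MemLocalRing M ((∑ a, Cyh.ee (-(a * i)) * (χ a : G → ℂ) g) /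
      (Nat.card (Subgroup.centralizer ({g} : Set G)) : ℂ)) := by
  classical
  have hab : ∀ x ∈ P, ∀ y ∈ P, x * y = y * x := fun x hx y hy =>
    congrArg Subtype.val (P_comm φ ⟨x, hx⟩ ⟨y, hy⟩)
  have hst : ∀ η : G → ℂ, Stab p P E η := stab_ab hM hP htop hn hab
  by_cases hne : ∑ a, Cyh.ee (-(a * i)) * (χ a : G → ℂ) g = 0
  · rw [hne, zero_div]; exact ring_zero
  by_cases hi : i = 0
  · subst hi
    refine proj_val hM (fun a : ZMod q => Cyh.ee (-(a * 0))) (fun _ => ee_int _) (fun a => (χ a : G → ℂ))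
      (fun a => IsIrr.isCharacter (χ a).2) ?_ g
    intro x hx
    by_contra hcon
    obtain ⟨c, y, hy, hcm, hg⟩ := supp_F hM hP htop hn φ hχst 0 x hcon
    rw [wp_zero, mul_one, mul_inv_cancel, one_mul] at hg
    rw [hg] at hx
    exact hy hx
  · obtain ⟨c, y, hy, hcm, hg⟩ := supp_F hM hP htop hn φ hχst i g hne
    set z := wp φ i with hz
    have hzP : z ∈ P := wp_mem φ i
    have hz1 : z ≠ 1 := fun h => hi (wp_inj φ (by rw [wp_zero]; exact h))
    obtain ⟨β, hβ, hle, hag, hcard, ψ, hψ⟩ := loc_block hM hP htop hc hzP hz1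
    haveI : Fintype (Subgroup.centralizer ({z} : Set G)) := Fintype.ofFinite _
    have hyC : c⁻¹ * y * c ∈ Subgroup.centralizer ({z} : Set G) := by
      rw [mem_Ce1]
      have h1 : c⁻¹ * (c * z * c⁻¹ * y) * c = c⁻¹ * (y * (c * z * c⁻¹)) * c := by rw [hcm]
      calc c⁻¹ * y * c * z = c⁻¹ * (y * (c * z * c⁻¹)) * c := by group
        _ = c⁻¹ * (c * z * c⁻¹ * y) * c := h1.symm
        _ = z * (c⁻¹ * y * c) := by group
    set y' : Subgroup.centralizer ({z} : Set G) := ⟨c⁻¹ * y * c, hyC⟩ with hy'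
    have hyo : ¬ p ∣ orderOf y' := by
      rw [← Subgroup.orderOf_coe]
      have := orderOf_conj c⁻¹ y
      rw [inv_inv] at this
      show ¬ p ∣ orderOf (c⁻¹ * y * c)
      rw [this]; exact hy
    have hgy : g = c * (z * (y' : G)) * c⁻¹ := by
      rw [hg, hy']; group
    have hFc : ∑ a, Cyh.ee (-(a * i)) * (χ a : G → ℂ) g = ∑ a, Cyh.ee (-(a * i)) * (χ a : G → ℂ) (z * (y' : G)) := by
      refine Finset.sum_congr rfl fun a _ => ?_
      rw [hgy, IsIrr.isClass (χ a).2]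
    have hcc : Nat.card (Subgroup.centralizer ({g} : Set G)) = Nat.card (Subgroup.centralizer ({z * (y' : G)} : Set G)) :=
      H10.BlockFMT.card_centralizer_conj (isConj_iff.2 ⟨c, hgy.symm⟩)
    have hzo : ∃ k : ℕ, orderOf z = p ^ k := by
      obtain ⟨k, hk⟩ := IsPGroup.iff_orderOf.1 hP.pg ⟨z, hzP⟩
      rw [Subgroup.orderOf_mk] at hk
      exact ⟨k, hk⟩
    rw [hFc, hcc, H10.BlockPrin.card_centralizer_section hzo y' hyo, ← F_st hM hP htop hn φ hχst,
      st_eq _ (IsIrr.isClass χ₀.2) hzo y' hyo]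
    obtain ⟨κ, hκ, hκv⟩ := bp_val hag hψ χ₀
    have h1 : ∑ b ∈ blocks (Subgroup.centralizer ({z} : Set G)) M, cc p P E (fun x => if x = wp φ i then (q : ℂ) else 0) z
        (ep M (Subgroup.centralizer ({z} : Set G)) b) * bp z b (χ₀ : G → ℂ) y' =
        q * (κ * (ψ : Subgroup.centralizer ({z} : Set G) → ℂ) y') := by
      rw [Finset.sum_eq_single β]
      · rw [cc_eq (hst _) (x := 1) (by rw [one_mul, inv_one, mul_one, KG.cnj_one_apply]; exact hle), hκv y' hyo, if_pos (by rw [one_mul, inv_one, mul_one])]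
      · intro b' hb' hne'
        rw [mem_blocks] at hb'
        by_cases h : ∃ x, LE p (Subgroup.zpowers (x * z * x⁻¹)) (KG.cnj x (ep M (Subgroup.centralizer ({z} : Set G)) b')) P E
        · obtain ⟨x, hx⟩ := h
          rw [cc_eq (hst _) hx]
          by_cases hxz : x * z * x⁻¹ = z
          · exfalso
            apply hne'
            have hfix : KG.Fix (Subgroup.centralizer ({z} : Set G)) (ep M (Subgroup.centralizer ({z} : Set G)) b') := by
              rw [← rA_hatb]; exact rA_fix (hatb_fix _ _)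
            have hxC : x ∈ Subgroup.centralizer ({z} : Set G) := by
              rw [mem_Ce1]
              calc x * z = (x * z * x⁻¹) * x := by group
                _ = z * x := by rw [hxz]
            rw [hxz, hfix x hxC] at hx
            exact ep_inj hb' hβ (le_unique hP.pg hP.be hx hle)
          · rw [if_neg (fun h => hxz h), zero_mul]
        · rw [cc_zero h, zero_mul]
      · intro h
        exact absurd (mem_blocks.2 hβ) h
    rw [h1]
    have h2 := nil_proj hM hβ hag hψ hyo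
    rw [hcard, P_card φ] at h2
    have h3 : (q : ℂ) * (κ * (ψ : Subgroup.centralizer ({z} : Set G) → ℂ) y') /
        (Nat.card (Subgroup.centralizer ({y'} : Set (Subgroup.centralizer ({z} : Set G)))) : ℂ) =
        κ * ((q : ℂ) * (ψ : Subgroup.centralizer ({z} : Set G) → ℂ) y' /
        (Nat.card (Subgroup.centralizer ({y'} : Set (Subgroup.centralizer ({z} : Set G)))) : ℂ)) := by ring
    rw [h3]
    exact ring_mul (memLocalRing_of_integral hMax.ne_top hκ) h2

end lev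

end Cfsg.Agent.H25.Cze
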