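import Mathlib
import Cfsg.Agent.H25_Czf
import Cfsg.Agent.H25_Czc

/-!
H25_Czg: expansion of the singular values in terms of decomposition numbers.
-/

set_option autoImplicit false
set_option linter.unusedSectionVars false

open scoped ComplexConjugate

namespace Cfsg.Agent.H25.Czg

open Cfsg Cfsg.Agent.H3 Cfsg.Agent.H3.CharIrr Cfsg.Agent.H3.CharComplete Cfsg.Agent.H3.CharBasic
  Cfsg.Agent.H10.BlockLoc Cfsg.Agent.H10.BlockAlg Cfsg.Agent.H10.BlockIdem Cfsg.Agent.H10.Char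
  Cfsg.Agent.H10.BlockSMT Cfsg.Agent.H10.BlockSMT2 Cfsg.Agent.H10.BlockTrace Cfsg.Agent.H10.BlockDefect
  Cfsg.Agent.H10.BlockMain Cfsg.Agent.H10.BlockHZ Cfsg.Agent.H10.BlockOrth
  Cfsg.Agent.H10.PPart Cfsg.Agent.H25.IndCong Cfsg.Agent.H25.Red Cfsg.Agent.H25.KG Cfsg.Agent.H25.Up
  Cfsg.Agent.H25.BPTr Cfsg.Agent.H25.BPMain Cfsg.Agent.H25.BPDef Cfsg.Agent.H25.Fus Cfsg.Agent.H25.Nilp
  Cfsg.Agent.H25.NilpAb Cfsg.Agent.H25.Rel Cfsg.Agent.H25.FMT Cfsg.Agent.H25.Sub Cfsg.Agent.H25.Sub2 Cfsg.Agent.H25.Cyk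
  Cfsg.Agent.H25.Cys Cfsg.Agent.H25.Cyn Cfsg.Agent.H25.Cyi Cfsg.Agent.H25.Cyx Cfsg.Agent.H25.Cyy Cfsg.Agent.H25.Cyz
  Cfsg.Agent.H25.Cza Cfsg.Agent.H25.Czb

section exps

variable {p : ℕ} {M : Ideal AlgInt} {G : Type*} [Group G] [Fintype G] [hMax : M.IsMaximal]
  [hp : Fact p.Prime] [hch : CharP (KM M) p] {P : Subgroup G} {E : MonoidAlgebra (KM M) G} {u : G}
  {B : Set (IrrCharacter G)} {b : Set (IrrCharacter (Ce (Subgroup.zpowers u)))} {q : ℕ} [NeZero q]
  {φ : Multiplicative (ZMod q) ≃* P} {θ : ZMod q → IrrCharacter (Ce (Subgroup.zpowers u))}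

/-- centralizer divisibility of the transforms -/
def PJ (M : Ideal AlgInt) (θ : ZMod q → IrrCharacter (Ce (Subgroup.zpowers u))) : Prop :=
  ∀ i (g : Ce (Subgroup.zpowers u)), MemLocalRing M ((∑ a, Cyh.ee (-(a * i)) * (θ a : Ce (Subgroup.zpowers u) → ℂ) g) /
        (Nat.card (Subgroup.centralizer ({g} : Set (Ce (Subgroup.zpowers u)))) : ℂ))

theorem exists_cfg4 (hM : IsPModular p M) (hB : IsPBlock M B) (hP : BP p (epG M B) P E) (htop : KG.Top p P E)
    (hc : IsCyclic P) (huP : u ∈ P) (huo : orderOf u = p) (φ : Multiplicative (ZMod q) ≃* P) :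
    ∃ b θ, Cfg p M B P E u b φ θ ∧ PJ M θ := by
  have hP1 : P ≠ ⊥ := by
    rintro rfl
    rw [Subgroup.mem_bot] at huP
    rw [huP, orderOf_one] at huo
    exact hp.out.one_lt.ne huo
  have hQ1 : Subgroup.zpowers u ≠ ⊥ := by
    rw [Ne, Subgroup.zpowers_eq_bot]
    rintro rfl
    rw [orderOf_one] at huo
    exact hp.out.one_lt.ne huo
  obtain ⟨f, -, hle⟩ := le_exists hP.pg hP.be (Subgroup.zpowers_le.2 huP)
  obtain ⟨b, hb, hbf, hnil, -⟩ := Cyg.rank_cent hM hP htop hc hle hQ1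
  subst hbf
  obtain ⟨θ, hf, hpj⟩ := Czf.exists_fam4 hM hP htop hc hP1 φ hb hnil hle
  exact ⟨b, θ, ⟨hM, hB, hP, htop, hc, huP, huo, hb, hnil, hle, hf⟩, hpj⟩

/-- the block part of b as a combination of the decomposition numbers -/
theorem bp_F [Fintype (Ce (Subgroup.zpowers u))] (h : Cfg p M B P E u b φ θ) (χ : IrrCharacter G)
    {y : Ce (Subgroup.zpowers u)} (hy : p ∣ orderOf y) :
    blockPart b (fun c : Ce (Subgroup.zpowers u) => (χ : G → ℂ) c) y =
      ∑ i, (if i = 0 then 0 else ((q : ℂ)⁻¹ * Fx θ i (y : G)) * Cyh.dd (mu θ) χ i) := by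
  classical
  rw [bp_sum h]
  have h1 : ∀ a, (mu θ χ a : ℂ) * (θ a : Ce (Subgroup.zpowers u) → ℂ) y =
      ∑ i, (q : ℂ)⁻¹ * (Cyh.ee (-(a * i)) * (θ a : Ce (Subgroup.zpowers u) → ℂ) y) * Cyh.dd (mu θ) χ i := by
    intro a
    rw [Cyh.mu_eq, Finset.mul_sum, Finset.sum_mul]
    exact Finset.sum_congr rfl fun i _ => by ring
  rw [Finset.sum_congr rfl fun a _ => h1 a, Finset.sum_comm]
  refine Finset.sum_congr rfl fun i _ => ?_
  by_cases hi : i = 0
  · subst hi
    rw [if_pos rfl, ← Finset.sum_mul, ← Finset.mul_sum]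
    have h2 : ∑ a, Cyh.ee (-(a * 0)) * (θ a : Ce (Subgroup.zpowers u) → ℂ) y = 0 := by
      rw [← sum_sing h hy]
      refine Finset.sum_congr rfl fun a _ => ?_
      rw [mul_zero, neg_zero, Cyh.ee_zero, one_mul]
    rw [h2, mul_zero, zero_mul]
  · rw [if_neg hi, ← Finset.sum_mul, ← Finset.mul_sum, Fx_mem]

/-- the expansion near the defect group -/
theorem expand_core (h : Cfg p M B P E u b φ θ) (hpj : PJ M θ) {x z : G} (hz : IsPPart p x z) (hzP : z ∈ P)
    (hz1 : z ≠ 1) :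
    ∃ g : ZMod q → ℂ, (∀ i, MemLocalRing M (g i)) ∧
      (∀ i, MemLocalRing M ((q : ℂ) * g i / (Nat.card (Subgroup.centralizer ({x} : Set G)) : ℂ))) ∧
      ∀ χ ∈ B, (χ : G → ℂ) x = ∑ i, (if i = 0 then 0 else g i * Cyh.dd (mu θ) χ i) := by
  classical
  haveI : Fintype (Ce (Subgroup.zpowers u)) := Fintype.ofFinite _
  have huz : u ∈ Subgroup.zpowers z := u_mem_zp h.hP.pg h.hc h.huP h.huo hzP hz1
  have hzx : z ∈ Subgroup.zpowers x := ppart_mem_zpowers' hz
  have huz' : u ∈ Subgroup.zpowers x := Subgroup.zpowers_le.2 hzx huz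
  have hup : ∃ k : ℕ, orderOf u = p ^ k := ⟨1, by rw [pow_one]; exact h.huo⟩
  have hCx : Subgroup.centralizer ({x} : Set G) ≤ Ce (Subgroup.zpowers u) := by
    intro c hc
    rw [cen_u, mem_Ce1]
    rw [mem_Ce1] at hc
    obtain ⟨k, hk⟩ := huz'
    have hk' : x ^ k = u := hk
    rw [← hk']
    exact (Commute.zpow_right (show Commute c x from hc) k).eq
  have hxC : x ∈ Ce (Subgroup.zpowers u) := hCx (by rw [mem_Ce1])
  set xC : Ce (Subgroup.zpowers u) := ⟨x, hxC⟩ with hxCd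
  have hpp : ∀ w : G, IsPPart p x w → Subgroup.centralizer ({w} : Set G) ≤ Ce (Subgroup.zpowers u) := by
    intro w hw
    have h1 : z = w := ppart_unique (p := p) hz hw
    exact part_le hw (h1 ▸ huz)
  have hxo : p ∣ orderOf x := by
    rw [← h.huo]
    exact orderOf_dvd_of_mem_zpowers huz'
  have key : ∀ b' : Set (IrrCharacter (Ce (Subgroup.zpowers u))), IsPBlock M b' →
      ∃ γ : ZMod q → ℂ, (∀ i, MemLocalRing M (γ i)) ∧
      (∀ i, MemLocalRing M ((q : ℂ) * γ i / (Nat.card (Subgroup.centralizer ({x} : Set G)) : ℂ))) ∧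
      ∀ χ ∈ B, blockPart b' (fun c : Ce (Subgroup.zpowers u) => (χ : G → ℂ) c) xC =
        ∑ i, (if i = 0 then 0 else γ i * Cyh.dd (mu θ) χ i) := by
    intro b' hb'
    obtain ⟨B', hB'⟩ := Cyp.ind_def h.hM cen_u hup hb'
    by_cases hBB : B' = B
    · subst hBB
      obtain ⟨g, hg, hK, rfl⟩ := conj_b h hB'
      set x' : Ce (Subgroup.zpowers u) := (cI g hK).symm xC with hx'
      have h2 : xC = cI g hK x' := (MulEquiv.apply_symm_apply _ _).symm
      have h2' : x = g * (x' : G) * g⁻¹ := by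
        have h4 := cI_coe g hK x'
        rw [← h2] at h4
        exact h4
      have hx'o : p ∣ orderOf x' := by
        rw [← Subgroup.orderOf_coe]
        rw [h2', orderOf_conj] at hxo
        exact hxo
      have hCx' : Subgroup.centralizer ({(x' : G)} : Set G) ≤ Ce (Subgroup.zpowers u) := by
        intro c hc
        rw [mem_Ce1] at hc
        have h5 : g * c * g⁻¹ ∈ Ce (Subgroup.zpowers u) := by
          apply hCx
          rw [mem_Ce1, h2']
          calc g * c * g⁻¹ * (g * (x' : G) * g⁻¹) = g * (c * x') * g⁻¹ := by group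
            _ = g * (x' * c) * g⁻¹ := by rw [hc]
            _ = _ := by group
        exact (Subgroup.mem_normalizer_iff.1 (norm_le_norm_Ce _ hg) c).2 h5
      have hcard : Nat.card (Subgroup.centralizer ({x} : Set G)) =
          Nat.card (Subgroup.centralizer ({x'} : Set (Ce (Subgroup.zpowers u)))) := by
        rw [H10.BlockFMT2.card_centralizer_subgroup, inf_eq_left.2 hCx']
        exact H10.BlockFMT.card_centralizer_conj (isConj_iff.2 ⟨g, h2'.symm⟩)
      refine ⟨fun i => (q : ℂ)⁻¹ * Fx θ i (x' : G), ?_, ?_, ?_⟩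
      · intro i
        obtain ⟨τ, h5, h6⟩ := Fx_loc h i (x' : G)
        beta_reduce
        rw [h6, ← mul_assoc, inv_mul_cancel₀ Cyh.q_ne, one_mul]
        exact h5
      · intro i
        beta_reduce
        rw [← mul_assoc, mul_inv_cancel₀ Cyh.q_ne, one_mul, hcard, Fx_mem]
        exact hpj i x'
      · intro χ hχ
        rw [h2, bp_tB, bp_F h χ hx'o]
    · refine ⟨fun _ => 0, fun _ => ring_zero, fun i => by beta_reduce; rw [mul_zero, zero_div]; exact ring_zero, ?_⟩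
      intro χ hχ
      have h2 : χ ∉ B' := by
        intro hk
        exact hBB (block_eq_of_mem hB'.2.1 h.hB hk hχ)
      rw [bp_res, smt_idem h.hM (Ce (Subgroup.zpowers u)) hB' xC hpp h2]
      symm
      apply Finset.sum_eq_zero
      intro i _
      rw [zero_mul, ite_self]
  choose! γ h1 h2 h3 using key
  refine ⟨fun i => ∑ b' ∈ blocks (Ce (Subgroup.zpowers u)) M, γ b' i, ?_, ?_, ?_⟩
  · intro i
    exact ring_sum _ _ fun b' hb' => h1 b' (mem_blocks.1 hb') i
  · intro i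
    beta_reduce
    rw [Finset.mul_sum, Finset.sum_div]
    exact ring_sum _ _ fun b' hb' => h2 b' (mem_blocks.1 hb') i
  · intro χ hχ
    have hdec : (χ : G → ℂ) x = ∑ b' ∈ blocks (Ce (Subgroup.zpowers u)) M,
        blockPart b' (fun c : Ce (Subgroup.zpowers u) => (χ : G → ℂ) c) xC := by
      rw [lin_single_eq_sum (M := M) (Ce (Subgroup.zpowers u)) (χ : G → ℂ) x]
      refine Finset.sum_congr rfl fun b' _ => ?_
      rw [lin_emb_mul_single, bp_res]
      refine Finset.sum_congr rfl fun c' _ => ?_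
      rw [eB_coeff]
    rw [hdec, Finset.sum_congr rfl fun b' hb' => h3 b' (mem_blocks.1 hb') χ hχ, Finset.sum_comm]
    refine Finset.sum_congr rfl fun i _ => ?_
    by_cases hi : i = 0
    · simp [hi]
    · simp only [if_neg hi]
      rw [Finset.sum_mul]

/-- the expansion of the singular values -/
theorem expand (h : Cfg p M B P E u b φ θ) (hpj : PJ M θ) {x : G} (hx : p ∣ orderOf x) :
    ∃ g : ZMod q → ℂ, (∀ i, MemLocalRing M (g i)) ∧
      (∀ i, MemLocalRing M ((q : ℂ) * g i / (Nat.card (Subgroup.centralizer ({x} : Set G)) : ℂ))) ∧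
      ∀ χ ∈ B, (χ : G → ℂ) x = ∑ i, (if i = 0 then 0 else g i * Cyh.dd (mu θ) χ i) := by
  classical
  by_cases hall : ∀ χ ∈ B, (χ : G → ℂ) x = 0
  · refine ⟨fun _ => 0, fun _ => ring_zero, fun i => by beta_reduce; rw [mul_zero, zero_div]; exact ring_zero, ?_⟩
    intro χ hχ
    rw [hall χ hχ]
    symm
    apply Finset.sum_eq_zero
    intro i _
    rw [zero_mul, ite_self]
  · push Not at hall
    obtain ⟨χ₁, hχ₁, hne⟩ := hall
    obtain ⟨z, hz⟩ := ppart_exists (p := p) x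
    have hD : IsDefectGroup p M B P := (defectG_iff h.hM h.hB).2 (BPDef.Top.dgh h.htop h.hP)
    obtain ⟨g, hg⟩ := mem_defect_of_ne_zero h.hM h.hB hD hχ₁ hz hne
    have hz1 : g * z * g⁻¹ ≠ 1 := by
      intro h0
      have h1 : z = 1 := by
        have : z = g⁻¹ * (g * z * g⁻¹) * g := by group
        rw [this, h0]; group
      exact (ppart_regular_iff hz).1 h1 hx
    obtain ⟨γ, h1, h2, h3⟩ := expand_core h hpj (conj_ppart hz g) hg hz1
    have hcc : Nat.card (Subgroup.centralizer ({x} : Set G)) = Nat.card (Subgroup.centralizer ({g * x * g⁻¹} : Set G)) :=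
      (H10.BlockFMT.card_centralizer_conj (isConj_iff.2 ⟨g, rfl⟩)).symm
    refine ⟨γ, h1, fun i => by rw [hcc]; exact h2 i, fun χ hχ => ?_⟩
    rw [← h3 χ hχ, IsIrr.isClass χ.2]

theorem dd_conj (mu' : IrrCharacter G → ZMod q → ℕ) (χ : IrrCharacter G) (i : ZMod q) :
    conj (Cyh.dd mu' χ i) = Cyh.dd mu' χ (-i) := by
  unfold Cyh.dd
  rw [map_sum]
  refine Finset.sum_congr rfl fun a _ => ?_
  rw [map_mul, Cyh.ee_conj, mul_neg, map_natCast]

/-- the sums of the values against the decomposition numbers -/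
theorem J_mem [Fintype (IrrCharacter G)] (h : Cfg p M B P E u b φ θ) (hpj : PJ M θ) {x : G} (hx : p ∣ orderOf x)
    {i : ZMod q} (hi : i ≠ 0) : MemLocalRing M ((∑ χ : IrrCharacter G, Cyh.dd (mu θ) χ i * (χ : G → ℂ) x) /
      (Nat.card (Subgroup.centralizer ({x} : Set G)) : ℂ)) := by
  classical
  obtain ⟨g, h1, h2, h3⟩ := expand h hpj hx
  have h4 : ∀ χ : IrrCharacter G, Cyh.dd (mu θ) χ i * (χ : G → ℂ) x =
      ∑ k, (if k = 0 then 0 else g k * (Cyh.dd (mu θ) χ k * conj (Cyh.dd (mu θ) χ (-i)))) := by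
    intro χ
    rw [dd_conj, neg_neg]
    by_cases hχ : χ ∈ B
    · rw [h3 χ hχ, Finset.mul_sum]
      refine Finset.sum_congr rfl fun k _ => ?_
      split_ifs
      · rw [mul_zero]
      · ring
    · rw [dd_out h hχ hi, zero_mul]
      symm
      apply Finset.sum_eq_zero
      intro k _
      rw [mul_zero, mul_zero, ite_self]
  rw [Finset.sum_congr rfl fun χ _ => h4 χ, Finset.sum_comm, Finset.sum_div]
  refine ring_sum (M := M) _ _ fun k _ => ?_
  by_cases hk : k = 0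
  · subst hk
    have e0 : ∑ χ : IrrCharacter G, (if (0 : ZMod q) = 0 then (0 : ℂ) else
        g 0 * (Cyh.dd (mu θ) χ 0 * conj (Cyh.dd (mu θ) χ (-i)))) = 0 := Finset.sum_eq_zero fun χ _ => if_pos rfl
    rw [e0, zero_div]
    exact ring_zero
  · have e0 : ∑ χ : IrrCharacter G, (if k = 0 then (0 : ℂ) else
        g k * (Cyh.dd (mu θ) χ k * conj (Cyh.dd (mu θ) χ (-i)))) =
        g k * ∑ χ : IrrCharacter G, (Cyh.dd (mu θ) χ k * conj (Cyh.dd (mu θ) χ (-i))) := by
      rw [Finset.mul_sum]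
      exact Finset.sum_congr rfl fun χ _ => if_neg hk
    rw [e0]
    obtain ⟨e1, e2⟩ := kernel_all h k (-i) hk (neg_ne_zero.2 hi)
    by_cases hex : ∃ g ∈ HT φ (Nf P E), -i = (g : ZMod q) * k
    · rw [e1 hex, mul_comm (g k)]
      exact h2 k
    · rw [e2 hex, mul_zero, zero_div]
      exact ring_zero

end exps

end Cfsg.Agent.H25.Czg
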