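import Mathlib
import Cfsg.Agent.H25_Czg

/-!
H25_Czh: a criterion for perfect isometries between blocks with cyclic defect groups.
-/

set_option autoImplicit false
set_option linter.unusedSectionVars false

open scoped ComplexConjugate

namespace Cfsg.Agent.H25.Czh

open Cfsg Cfsg.Agent.H3 Cfsg.Agent.H3.CharIrr Cfsg.Agent.H3.CharComplete Cfsg.Agent.H3.CharBasic
  Cfsg.Agent.H10.BlockLoc Cfsg.Agent.H10.BlockAlg Cfsg.Agent.H10.BlockIdem Cfsg.Agent.H10.Char
  Cfsg.Agent.H10.BlockSMT Cfsg.Agent.H10.BlockSMT2 Cfsg.Agent.H10.BlockTrace Cfsg.Agent.H10.BlockDefect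
  Cfsg.Agent.H10.BlockMain Cfsg.Agent.H10.BlockHZ Cfsg.Agent.H10.BlockOrth
  Cfsg.Agent.H10.PPart Cfsg.Agent.H25.IndCong Cfsg.Agent.H25.Red Cfsg.Agent.H25.KG Cfsg.Agent.H25.Up
  Cfsg.Agent.H25.BPTr Cfsg.Agent.H25.BPMain Cfsg.Agent.H25.BPDef Cfsg.Agent.H25.Fus Cfsg.Agent.H25.Nilp
  Cfsg.Agent.H25.NilpAb Cfsg.Agent.H25.Rel Cfsg.Agent.H25.FMT Cfsg.Agent.H25.Sub Cfsg.Agent.H25.Sub2 Cfsg.Agent.H25.Cyk
  Cfsg.Agent.H25.Cys Cfsg.Agent.H25.Cyn Cfsg.Agent.H25.Cyi Cfsg.Agent.H25.Cyx Cfsg.Agent.H25.Cyy Cfsg.Agent.H25.Cyz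
  Cfsg.Agent.H25.Cza Cfsg.Agent.H25.Czb Cfsg.Agent.H25.Czd Cfsg.Agent.H25.Czg

section crit

variable {p : ℕ} {M : Ideal AlgInt} [hMax : M.IsMaximal] [hp : Fact p.Prime] [hch : CharP (KM M) p]
  {G : Type*} [Group G] [Fintype G] {P : Subgroup G} {E : MonoidAlgebra (KM M) G} {u : G}
  {B : Set (IrrCharacter G)} {b : Set (IrrCharacter (Ce (Subgroup.zpowers u)))} {q : ℕ} [NeZero q]
  {φ : Multiplicative (ZMod q) ≃* P} {θ : ZMod q → IrrCharacter (Ce (Subgroup.zpowers u))}
  {G' : Type*} [Group G'] [Fintype G'] {P' : Subgroup G'} {E' : MonoidAlgebra (KM M) G'} {u' : G'}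
  {B' : Set (IrrCharacter G')} {b' : Set (IrrCharacter (Ce (Subgroup.zpowers u')))}
  {φ' : Multiplicative (ZMod q) ≃* P'} {θ' : ZMod q → IrrCharacter (Ce (Subgroup.zpowers u'))}

open Classical in
/-- the kernel as a finite sum -/
theorem kern_eq [Fintype (IrrCharacter G')] (I : IrrCharacter G' → IrrCharacter G) (ε : IrrCharacter G' → ℤ) (x : G) (y : G') :
    signedBijectionKernel B' I ε x y =
      ∑ η : IrrCharacter G', (if η ∈ B' then (ε η : ℂ) * (I η : G → ℂ) x * (η : G' → ℂ) y else 0) := by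
  unfold signedBijectionKernel
  rw [finsum_mem_eq_finite_toFinset_sum _ (Set.toFinite B'), ← Finset.sum_filter]
  refine Finset.sum_congr ?_ fun _ _ => rfl
  ext χ; simp

open Classical in
theorem sum_bij [Fintype (IrrCharacter G)] [Fintype (IrrCharacter G')] {I : IrrCharacter G' → IrrCharacter G}
    (hI : Set.BijOn I B' B) (f : IrrCharacter G → ℂ) (hf : ∀ χ, χ ∉ B → f χ = 0) :
    ∑ η : IrrCharacter G', (if η ∈ B' then f (I η) else 0) = ∑ χ : IrrCharacter G, f χ := by
  rw [← Finset.sum_filter]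
  refine Finset.sum_bij_ne_zero (fun η _ _ => I η) (fun _ _ _ => Finset.mem_univ _) ?_ ?_ (fun _ _ _ => rfl)
  · intro a ha _ c hc _ h
    exact hI.injOn (Finset.mem_filter.1 ha).2 (Finset.mem_filter.1 hc).2 h
  · intro χ _ hχ
    have hχB : χ ∈ B := by
      by_contra hcon
      exact hχ (hf χ hcon)
    obtain ⟨η, hη, rfl⟩ := hI.surjOn hχB
    exact ⟨η, Finset.mem_filter.2 ⟨Finset.mem_univ _, hη⟩, hχ, rfl⟩

/-- the criterion -/
theorem perfect (h : Cfg p M B P E u b φ θ) (hpj : PJ M θ) (h' : Cfg p M B' P' E' u' b' φ' θ') (hpj' : PJ M θ')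
    {I : IrrCharacter G' → IrrCharacter G} (hI : Set.BijOn I B' B) {ε : IrrCharacter G' → ℤ}
    (hε : ∀ η ∈ B', ε η = 1 ∨ ε η = -1)
    (hD : ∀ η ∈ B', ∀ i : ZMod q, i ≠ 0 → (ε η : ℂ) * Cyh.dd (mu θ) (I η) i = Cyh.dd (mu θ') η i) :
    IsPerfectIsometry p M B' B I ε := by
  classical
  haveI : Fintype (IrrCharacter G) := Fintype.ofFinite _
  haveI : Fintype (IrrCharacter G') := Fintype.ofFinite _
  have hεε : ∀ η ∈ B', (ε η : ℂ) * (ε η : ℂ) = 1 := by
    intro η hη
    rcases hε η hη with h0 | h0 <;> rw [h0] <;> norm_num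
  have hD' : ∀ η ∈ B', ∀ i : ZMod q, i ≠ 0 → (ε η : ℂ) * Cyh.dd (mu θ') η i = Cyh.dd (mu θ) (I η) i := by
    intro η hη i hi
    rw [← hD η hη i hi, ← mul_assoc, hεε η hη, one_mul]
  -- the expansion on the right
  have expR : ∀ (x : G) (y : G'), p ∣ orderOf y → ∃ g : ZMod q → ℂ, (∀ i, MemLocalRing M (g i)) ∧
      signedBijectionKernel B' I ε x y = ∑ k, (if k = 0 then 0 else g k * ∑ χ : IrrCharacter G, Cyh.dd (mu θ) χ k * (χ : G → ℂ) x) := by
    intro x y hy
    obtain ⟨g, h1, -, h3⟩ := expand h' hpj' hy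
    refine ⟨g, h1, ?_⟩
    rw [kern_eq]
    have e1 : ∀ η : IrrCharacter G', (if η ∈ B' then (ε η : ℂ) * (I η : G → ℂ) x * (η : G' → ℂ) y else 0) =
        ∑ k, (if η ∈ B' then (if k = 0 then 0 else g k * (Cyh.dd (mu θ) (I η) k * (I η : G → ℂ) x)) else 0) := by
      intro η
      by_cases hη : η ∈ B'
      · simp only [if_pos hη]
        rw [h3 η hη, Finset.mul_sum]
        refine Finset.sum_congr rfl fun k _ => ?_
        by_cases hk : k = 0
        · rw [if_pos hk, if_pos hk, mul_zero]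
        · rw [if_neg hk, if_neg hk, ← hD' η hη k hk]; ring
      · simp only [if_neg hη]
        rw [Finset.sum_const_zero]
    rw [Finset.sum_congr rfl fun η _ => e1 η, Finset.sum_comm]
    refine Finset.sum_congr rfl fun k _ => ?_
    by_cases hk : k = 0
    · simp only [if_pos hk, ite_self, Finset.sum_const_zero]
    · simp only [if_neg hk]
      rw [sum_bij (B' := B') hI (fun χ => g k * (Cyh.dd (mu θ) χ k * (χ : G → ℂ) x)) (fun χ hχ => by
        beta_reduce
        rw [dd_out h hχ hk, zero_mul, mul_zero]), Finset.mul_sum]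
  -- the expansion on the left
  have expL : ∀ (x : G) (y : G'), p ∣ orderOf x → ∃ g : ZMod q → ℂ, (∀ i, MemLocalRing M (g i)) ∧
      signedBijectionKernel B' I ε x y = ∑ k, (if k = 0 then 0 else g k * ∑ η : IrrCharacter G', Cyh.dd (mu θ') η k * (η : G' → ℂ) y) := by
    intro x y hx
    obtain ⟨g, h1, -, h3⟩ := expand h hpj hx
    refine ⟨g, h1, ?_⟩
    rw [kern_eq]
    have e1 : ∀ η : IrrCharacter G', (if η ∈ B' then (ε η : ℂ) * (I η : G → ℂ) x * (η : G' → ℂ) y else 0) =
        ∑ k, (if k = 0 then 0 else g k * (Cyh.dd (mu θ') η k * (η : G' → ℂ) y)) := by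
      intro η
      by_cases hη : η ∈ B'
      · rw [if_pos hη, h3 (I η) (hI.mapsTo hη), Finset.mul_sum, Finset.sum_mul]
        refine Finset.sum_congr rfl fun k _ => ?_
        by_cases hk : k = 0
        · rw [if_pos hk, if_pos hk, mul_zero, zero_mul]
        · rw [if_neg hk, if_neg hk, ← hD η hη k hk]; ring
      · rw [if_neg hη]
        symm
        apply Finset.sum_eq_zero
        intro k _
        by_cases hk : k = 0
        · rw [if_pos hk]
        · rw [if_neg hk, dd_out h' hη hk, zero_mul, mul_zero]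
    rw [Finset.sum_congr rfl fun η _ => e1 η, Finset.sum_comm]
    refine Finset.sum_congr rfl fun k _ => ?_
    by_cases hk : k = 0
    · simp only [if_pos hk, Finset.sum_const_zero]
    · simp only [if_neg hk]
      rw [Finset.mul_sum]
  have sepR : ∀ (x : G) (y : G'), ¬ p ∣ orderOf x → p ∣ orderOf y → signedBijectionKernel B' I ε x y = 0 := by
    intro x y hx hy
    obtain ⟨g, -, h2⟩ := expR x y hy
    rw [h2]
    apply Finset.sum_eq_zero
    intro k _
    by_cases hk : k = 0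
    · rw [if_pos hk]
    · rw [if_neg hk, reg_rel h hk hx, mul_zero]
  have sepL : ∀ (x : G) (y : G'), p ∣ orderOf x → ¬ p ∣ orderOf y → signedBijectionKernel B' I ε x y = 0 := by
    intro x y hx hy
    obtain ⟨g, -, h2⟩ := expL x y hx
    rw [h2]
    apply Finset.sum_eq_zero
    intro k _
    by_cases hk : k = 0
    · rw [if_pos hk]
    · rw [if_neg hk, reg_rel h' hk hy, mul_zero]
  refine ⟨hI, hε, fun x y => ?_⟩
  by_cases hx : p ∣ orderOf x <;> by_cases hy : p ∣ orderOf y
  · refine ⟨?_, ?_, Or.inl (iff_of_false (fun hh => hh hx) (fun hh => hh hy))⟩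
    · obtain ⟨g, h1, h2⟩ := expR x y hy
      rw [h2, Finset.sum_div]
      refine ring_sum (M := M) _ _ fun k _ => ?_
      by_cases hk : k = 0
      · rw [if_pos hk, zero_div]; exact ring_zero
      · rw [if_neg hk, mul_div_assoc]
        exact ring_mul (h1 k) (J_mem h hpj hx hk)
    · obtain ⟨g, h1, h2⟩ := expL x y hx
      rw [h2, Finset.sum_div]
      refine ring_sum (M := M) _ _ fun k _ => ?_
      by_cases hk : k = 0
      · rw [if_pos hk, zero_div]; exact ring_zero
      · rw [if_neg hk, mul_div_assoc]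
        exact ring_mul (h1 k) (J_mem h' hpj' hy hk)
  · rw [sepL x y hx hy, zero_div, zero_div]
    exact ⟨ring_zero, ring_zero, Or.inr rfl⟩
  · rw [sepR x y hx hy, zero_div, zero_div]
    exact ⟨ring_zero, ring_zero, Or.inr rfl⟩
  · refine ⟨?_, ?_, Or.inl (iff_of_true hx hy)⟩
    · have h1 : ∀ x' : G, signedBijectionKernel B' I ε x' y =
          ∑ η : IrrCharacter G', (if η ∈ B' then (ε η : ℂ) * (η : G' → ℂ) y else 0) * (I η : G → ℂ) x' := by
        intro x'
        rw [kern_eq]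
        refine Finset.sum_congr rfl fun η _ => ?_
        split_ifs
        · ring
        · rw [zero_mul]
      rw [h1]
      refine proj_val h.hM _ (fun η => ?_) (fun η : IrrCharacter G' => (I η : G → ℂ)) (fun η => IsIrr.isCharacter (I η).2)
        (fun x' hx' => ?_) x
      · split_ifs
        · exact IsIntegral.mul (isIntegral_algebraMap (R := ℤ) (A := ℂ) (x := ε η)) (IsChar.isIntegral (IsIrr.isCharacter η.2) y)
        · exact isIntegral_zero
      · rw [← h1]
        exact sepL x' y hx' hy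
    · have h1 : ∀ y' : G', signedBijectionKernel B' I ε x y' =
          ∑ η : IrrCharacter G', (if η ∈ B' then (ε η : ℂ) * (I η : G → ℂ) x else 0) * (η : G' → ℂ) y' := by
        intro y'
        rw [kern_eq]
        refine Finset.sum_congr rfl fun η _ => ?_
        split_ifs
        · ring
        · rw [zero_mul]
      rw [h1]
      refine proj_val h.hM _ (fun η => ?_) (fun η : IrrCharacter G' => (η : G' → ℂ)) (fun η => IsIrr.isCharacter η.2)
        (fun y' hy' => ?_) y
      · split_ifs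
        · exact IsIntegral.mul (isIntegral_algebraMap (R := ℤ) (A := ℂ) (x := ε η)) (IsChar.isIntegral (IsIrr.isCharacter (I η).2) x)
        · exact isIntegral_zero
      · rw [← h1]
        exact sepR x y' hx hy'

end crit

end Cfsg.Agent.H25.Czh
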