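import Mathlib
import Cfsg.Agent.H25_Czh

/-!
H25_Czi: matching the characters of two blocks with isomorphic cyclic defect groups.
-/

set_option autoImplicit false
set_option linter.unusedSectionVars false

open scoped ComplexConjugate

namespace Cfsg.Agent.H25.Czi

open Cfsg Cfsg.Agent.H3 Cfsg.Agent.H3.CharIrr Cfsg.Agent.H3.CharComplete Cfsg.Agent.H3.CharBasic
  Cfsg.Agent.H10.BlockLoc Cfsg.Agent.H10.BlockAlg Cfsg.Agent.H10.BlockIdem Cfsg.Agent.H10.Char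
  Cfsg.Agent.H10.BlockSMT Cfsg.Agent.H10.BlockSMT2 Cfsg.Agent.H10.BlockTrace Cfsg.Agent.H10.BlockDefect
  Cfsg.Agent.H10.BlockMain Cfsg.Agent.H10.BlockHZ Cfsg.Agent.H10.BlockOrth
  Cfsg.Agent.H10.PPart Cfsg.Agent.H25.IndCong Cfsg.Agent.H25.Red Cfsg.Agent.H25.KG Cfsg.Agent.H25.Up
  Cfsg.Agent.H25.BPTr Cfsg.Agent.H25.BPMain Cfsg.Agent.H25.BPDef Cfsg.Agent.H25.Fus Cfsg.Agent.H25.Nilp
  Cfsg.Agent.H25.NilpAb Cfsg.Agent.H25.Rel Cfsg.Agent.H25.FMT Cfsg.Agent.H25.Sub Cfsg.Agent.H25.Sub2 Cfsg.Agent.H25.Cyk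
  Cfsg.Agent.H25.Cys Cfsg.Agent.H25.Cyn Cfsg.Agent.H25.Cyi Cfsg.Agent.H25.Cyx Cfsg.Agent.H25.Cyy Cfsg.Agent.H25.Cyz
  Cfsg.Agent.H25.Cza Cfsg.Agent.H25.Czb Cfsg.Agent.H25.Czd Cfsg.Agent.H25.Czg Cfsg.Agent.H25.Czh

/-- subgroups of the units modulo a prime power of the same small order are equal -/
theorem unit_sub_eq {p n q e : ℕ} (hp : p.Prime) (hq : q = p ^ n) {H H' : Subgroup (ZMod q)ˣ}
    (hH : Nat.card H = e) (hH' : Nat.card H' = e) (he : e ∣ p - 1) : H = H' := by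
  classical
  subst hq
  by_cases hp2 : p = 2
  · have he1 : e = 1 := by
      rw [hp2] at he
      exact Nat.dvd_one.1 he
    rw [Subgroup.card_eq_one.1 (hH.trans he1), Subgroup.card_eq_one.1 (hH'.trans he1)]
  · haveI : NeZero (p ^ n) := ⟨(pow_pos hp.pos n).ne'⟩
    haveI := ZMod.isCyclic_units_of_prime_pow p hp hp2 n
    have he0 : 0 < e := by rw [← hH]; exact Nat.card_pos
    set S : Finset (ZMod (p ^ n))ˣ := Finset.univ.filter (fun x => x ^ e = 1) with hS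
    have hSc : S.card ≤ e := IsCyclic.card_pow_eq_one_le he0
    have key : ∀ K : Subgroup (ZMod (p ^ n))ˣ, Nat.card K = e → ∀ x, x ∈ K ↔ x ∈ S := by
      intro K hK
      have h1 : Finset.univ.filter (fun x => x ∈ K) ⊆ S := by
        intro x hx
        rw [hS, Finset.mem_filter]
        refine ⟨Finset.mem_univ _, ?_⟩
        have h2 := pow_card_eq_one' (x := (⟨x, (Finset.mem_filter.1 hx).2⟩ : K))
        rw [hK] at h2
        exact congrArg Subtype.val h2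
      have h2 : (Finset.univ.filter (fun x => x ∈ K)).card = e := by
        rw [← hK, Nat.card_eq_fintype_card, Fintype.card_subtype]
      have h3 := Finset.eq_of_subset_of_card_le h1 (by rw [h2]; exact hSc)
      intro x
      rw [← h3, Finset.mem_filter]
      exact ⟨fun h => ⟨Finset.mem_univ _, h⟩, fun h => h.2⟩
    ext x
    rw [key H hH, key H' hH']

section ident

variable {p : ℕ} {M : Ideal AlgInt} [hMax : M.IsMaximal] [hp : Fact p.Prime] [hch : CharP (KM M) p]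
  {G : Type*} [Group G] [Fintype G] {P : Subgroup G} {E : MonoidAlgebra (KM M) G} {u : G}
  {B : Set (IrrCharacter G)} {b : Set (IrrCharacter (Ce (Subgroup.zpowers u)))} {q : ℕ} [NeZero q]
  {φ : Multiplicative (ZMod q) ≃* P} {θ : ZMod q → IrrCharacter (Ce (Subgroup.zpowers u))}
  {G' : Type*} [Group G'] [Fintype G'] {P' : Subgroup G'} {E' : MonoidAlgebra (KM M) G'} {u' : G'}
  {B' : Set (IrrCharacter G')} {b' : Set (IrrCharacter (Ce (Subgroup.zpowers u')))}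
  {φ' : Multiplicative (ZMod q) ≃* P'} {θ' : ZMod q → IrrCharacter (Ce (Subgroup.zpowers u'))}

/-- the matching from the two structures -/
theorem ident {H : Subgroup (ZMod q)ˣ} (hfree : ∀ h ∈ H, ∀ i : ZMod q, i ≠ 0 → (h : ZMod q) * i = i → h = 1)
    {X Y : Finset (IrrCharacter G)} {δ : IrrCharacter G → ℤ} {ε : ℤ} {L : Cyh.Orb H → IrrCharacter G}
    (hs : Str B p (mu θ) H X Y δ ε L)
    {X' Y' : Finset (IrrCharacter G')} {δ' : IrrCharacter G' → ℤ} {ε' : ℤ} {L' : Cyh.Orb H → IrrCharacter G'}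
    (hs' : Str B' p (mu θ') H X' Y' δ' ε' L') :
    ∃ (I : IrrCharacter G' → IrrCharacter G) (κ : IrrCharacter G' → ℤ), Set.BijOn I B' B ∧
      (∀ η ∈ B', κ η = 1 ∨ κ η = -1) ∧
      (∀ η ∈ B', ∀ i : ZMod q, i ≠ 0 → (κ η : ℂ) * Cyh.dd (mu θ) (I η) i = Cyh.dd (mu θ') η i) ∧
      (∀ η ∈ Y', κ η = ε * ε') := by
  classical
  haveI : Fintype H := Fintype.ofFinite _
  have ddL := dd_L hfree hs
  have ddL' := dd_L hfree hs'
  obtain ⟨hmem, hdis, hXc, hYc, hδ, hε, hLinj, hLY, hL1, hL2, hrel⟩ := hs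
  obtain ⟨hmem', hdis', hXc', hYc', hδ', hε', hLinj', hLY', hL1', hL2', hrel'⟩ := hs'
  have hXX : X'.card = X.card := hXc'.trans hXc.symm
  set f : X' ≃ X := Finset.equivOfCardEq hXX with hf
  have hXne : X.Nonempty := by
    rw [← Finset.card_pos, hXc]; exact Nat.card_pos
  obtain ⟨χ₀, hχ₀⟩ := hXne
  set I : IrrCharacter G' → IrrCharacter G := fun η => if hη : η ∈ X' then (f ⟨η, hη⟩ : IrrCharacter G) else
    if hη' : ∃ o, L' o = η then L hη'.choose else χ₀ with hI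
  set κ : IrrCharacter G' → ℤ := fun η => if η ∈ X' then δ' η * δ (I η) else ε * ε' with hκ
  have IX : ∀ η (hη : η ∈ X'), I η = f ⟨η, hη⟩ := fun η hη => dif_pos hη
  have hLX' : ∀ o, L' o ∉ X' := fun o hx => Finset.disjoint_left.1 hdis' hx ((hLY' _).2 ⟨o, rfl⟩)
  have hLX : ∀ o, L o ∉ X := fun o hx => Finset.disjoint_left.1 hdis hx ((hLY _).2 ⟨o, rfl⟩)
  have IL : ∀ o, I (L' o) = L o := by
    intro o
    have h1 : ∃ o', L' o' = L' o := ⟨o, rfl⟩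
    simp only [hI]
    rw [dif_neg (hLX' o), dif_pos h1, hLinj' h1.choose_spec]
  have hsq : ∀ z : ℤ, z = 1 ∨ z = -1 → z * z = 1 := by
    rintro z (h | h) <;> rw [h] <;> norm_num
  refine ⟨I, κ, ⟨?_, ?_, ?_⟩, ?_, ?_, ?_⟩
  · intro η hη
    rcases (hmem' η).1 hη with h1 | h1
    · rw [IX η h1, hmem]
      exact Or.inl (f ⟨η, h1⟩).2
    · obtain ⟨o, rfl⟩ := (hLY' η).1 h1
      rw [IL, hmem]
      exact Or.inr ((hLY _).2 ⟨o, rfl⟩)
  · intro η hη η₂ hη₂ heq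
    rcases (hmem' η).1 hη with h1 | h1 <;> rcases (hmem' η₂).1 hη₂ with h2 | h2
    · rw [IX η h1, IX η₂ h2] at heq
      exact congrArg Subtype.val (f.injective (Subtype.ext heq))
    · obtain ⟨o, rfl⟩ := (hLY' η₂).1 h2
      rw [IX η h1, IL] at heq
      exact absurd (heq ▸ (f ⟨η, h1⟩).2) (hLX o)
    · obtain ⟨o, rfl⟩ := (hLY' η).1 h1
      rw [IX η₂ h2, IL] at heq
      exact absurd (heq ▸ (f ⟨η₂, h2⟩).2) (hLX o)
    · obtain ⟨o, rfl⟩ := (hLY' η).1 h1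
      obtain ⟨o₂, rfl⟩ := (hLY' η₂).1 h2
      rw [IL, IL] at heq
      rw [hLinj heq]
  · intro χ hχ
    rcases (hmem χ).1 hχ with h1 | h1
    · obtain ⟨⟨η, hη⟩, h2⟩ := f.surjective ⟨χ, h1⟩
      refine ⟨η, (hmem' η).2 (Or.inl hη), ?_⟩
      rw [IX η hη, h2]
    · obtain ⟨o, rfl⟩ := (hLY χ).1 h1
      exact ⟨L' o, (hmem' _).2 (Or.inr ((hLY' _).2 ⟨o, rfl⟩)), IL o⟩
  · intro η hη
    by_cases h1 : η ∈ X'
    · have h2 : κ η = δ' η * δ (I η) := if_pos h1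
      have h3 : I η ∈ X := by rw [IX η h1]; exact (f ⟨η, h1⟩).2
      rw [h2]
      rcases (hδ' η h1).1 with e1 | e1 <;> rcases (hδ _ h3).1 with e2 | e2 <;> rw [e1, e2] <;> norm_num
    · have h2 : κ η = ε * ε' := if_neg h1
      rw [h2]
      rcases hε with e1 | e1 <;> rcases hε' with e2 | e2 <;> rw [e1, e2] <;> norm_num
  · intro η hη i hi
    rcases (hmem' η).1 hη with h1 | h1
    · have h2 : κ η = δ' η * δ (I η) := if_pos h1
      have h3 : I η ∈ X := by rw [IX η h1]; exact (f ⟨η, h1⟩).2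
      rw [h2, Cyh.dd_const _ _ (hδ _ h3).2 hi, Cyh.dd_const _ _ (hδ' _ h1).2 hi]
      have h4 := hsq _ (hδ _ h3).1
      have h5 : δ' η * δ (I η) * δ (I η) = δ' η := by rw [mul_assoc, h4, mul_one]
      exact_mod_cast h5
    · obtain ⟨o, rfl⟩ := (hLY' η).1 h1
      have h2 : κ (L' o) = ε * ε' := if_neg (hLX' o)
      rw [h2, IL, ddL o hi, ddL' o hi]
      have h4 := hsq _ hε
      have h5 : ((ε : ℤ) : ℂ) * ((ε : ℤ) : ℂ) = 1 := by exact_mod_cast h4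
      push_cast
      linear_combination (ε' : ℂ) * (∑ h : H, Cyh.ee (((h : (ZMod q)ˣ) : ZMod q) * ((Cyh.rp H o).1 * i))) * h5
  · intro η hη
    obtain ⟨o, rfl⟩ := (hLY' η).1 hη
    exact if_neg (hLX' o)

/-- the main combined statement -/
theorem perfect_main (h : Cfg p M B P E u b φ θ) (hpj : PJ M θ) (h' : Cfg p M B' P' E' u' b' φ' θ') (hpj' : PJ M θ')
    (hcard : Nat.card (HT φ (Nf P E)) = Nat.card (HT φ' (Nf P' E'))) (hdvd : Nat.card (HT φ (Nf P E)) ∣ p - 1)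
    {X' Y' : Finset (IrrCharacter G')} {δ' : IrrCharacter G' → ℤ} {ε' : ℤ} {L' : Cyh.Orb (HT φ' (Nf P' E')) → IrrCharacter G'}
    (hs' : Str B' p (mu θ') (HT φ' (Nf P' E')) X' Y' δ' ε' L') :
    ∃ (I : IrrCharacter G' → IrrCharacter G) (κ : IrrCharacter G' → ℤ), IsPerfectIsometry p M B' B I κ ∧
      ∃ k, ∀ η ∈ Y', κ η = k := by
  obtain ⟨n, hn⟩ := q_pow h
  have hH : HT φ (Nf P E) = HT φ' (Nf P' E') := unit_sub_eq hp.out hn rfl hcard.symm hdvd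
  obtain ⟨X, Y, δ, ε, L, hs⟩ := main h
  have hfree := free h
  rw [hH] at hfree
  have hs2 : ∃ L2 : Cyh.Orb (HT φ' (Nf P' E')) → IrrCharacter G, Str B p (mu θ) (HT φ' (Nf P' E')) X Y δ ε L2 := by
    rw [← hH]
    exact ⟨L, hs⟩
  obtain ⟨L2, hs2⟩ := hs2
  obtain ⟨I, κ, h1, h2, h3, h4⟩ := ident hfree hs2 hs'
  exact ⟨I, κ, perfect h hpj h' hpj' h1 h2 h3, _, h4⟩

end ident

end Cfsg.Agent.H25.Czi
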