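import Mathlib
import Cfsg.Agent.H25_Czi

/-!
H25_Czj: local subgroups of blocks with cyclic defect groups; perfect isometries.
-/

set_option autoImplicit false
set_option linter.unusedSectionVars false

open scoped ComplexConjugate

namespace Cfsg.Agent.H25.Czj

open Cfsg Cfsg.Agent.H3 Cfsg.Agent.H3.CharIrr Cfsg.Agent.H3.CharComplete Cfsg.Agent.H3.CharBasic
  Cfsg.Agent.H10.BlockLoc Cfsg.Agent.H10.BlockAlg Cfsg.Agent.H10.BlockIdem Cfsg.Agent.H10.Char
  Cfsg.Agent.H10.BlockSMT Cfsg.Agent.H10.BlockSMT2 Cfsg.Agent.H10.BlockTrace Cfsg.Agent.H10.BlockDefect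
  Cfsg.Agent.H10.BlockMain Cfsg.Agent.H10.BlockHZ Cfsg.Agent.H10.BlockOrth Cfsg.Agent.H10.BlockInd
  Cfsg.Agent.H10.PPart Cfsg.Agent.H25.IndCong Cfsg.Agent.H25.Red Cfsg.Agent.H25.KG Cfsg.Agent.H25.Up
  Cfsg.Agent.H25.BPTr Cfsg.Agent.H25.BPMain Cfsg.Agent.H25.BPDef Cfsg.Agent.H25.Fus Cfsg.Agent.H25.Nilp
  Cfsg.Agent.H25.NilpAb Cfsg.Agent.H25.Rel Cfsg.Agent.H25.FMT Cfsg.Agent.H25.Sub Cfsg.Agent.H25.Sub2 Cfsg.Agent.H25.Cyk
  Cfsg.Agent.H25.Cys Cfsg.Agent.H25.Cyn Cfsg.Agent.H25.Cyi Cfsg.Agent.H25.Cyx Cfsg.Agent.H25.Cyy Cfsg.Agent.H25.Cyz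
  Cfsg.Agent.H25.Cza Cfsg.Agent.H25.Czb Cfsg.Agent.H25.Czd Cfsg.Agent.H25.Czg Cfsg.Agent.H25.Czh Cfsg.Agent.H25.Czi

section cfg

variable {p : ℕ} {M : Ideal AlgInt} {G : Type*} [Group G] [Fintype G] [hMax : M.IsMaximal]
  [hp : Fact p.Prime] [hch : CharP (KM M) p] {P : Subgroup G} {E : MonoidAlgebra (KM M) G} {u : G}
  {B : Set (IrrCharacter G)} {b : Set (IrrCharacter (Ce (Subgroup.zpowers u)))} {q : ℕ} [NeZero q]
  {φ : Multiplicative (ZMod q) ≃* P} {θ : ZMod q → IrrCharacter (Ce (Subgroup.zpowers u))}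

theorem card_HTN (h : Cfg p M B P E u b φ θ) : Nat.card (HT φ (Nf P E)) = (Ce P).relIndex (Nf P E) :=
  card_HT φ (fun _ ht => (mem_Nf.1 ht).1)

theorem dvd_HT (h : Cfg p M B P E u b φ θ) : Nat.card (HT φ (Nf P E)) ∣ p - 1 := by
  rw [card_HTN h]
  haveI : ((Subgroup.centralizer (P : Set G)).subgroupOf (Nf P E)).Normal := by
    refine ⟨fun c hc t => ?_⟩
    have h1 := norm_le_norm_Ce P (mem_Nf.1 t.2).1
    exact (Subgroup.mem_normalizer_iff.1 h1 c).1 hc
  exact (quot_cyc h.hM h.hP h.htop h.hc (P_ne h) rfl).2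

theorem rank_eq (h : Cfg p M B P E u b φ θ) : blockRank p B = Nat.card (HT φ (Nf P E)) := by
  classical
  apply le_antisymm
  · obtain ⟨X, Y, δ, ε, L, hmem, hdis, hXc, hYc, hδ, hε, hLinj, hLY, hL1, hL2, hrel⟩ := main h
    rw [← hXc]
    refine Czc.rank_le (δ := δ) hmem hε ?_
    intro ψ hψ g hg
    obtain ⟨o, rfl⟩ := (hLY ψ).1 hψ
    exact hrel o g hg
  · rw [card_HTN h]
    exact Cyw.lower' h.hM h.hB h.hP h.htop h.hc (P_ne h)

end cfg

section rel

variable {p : ℕ} {M : Ideal AlgInt} {G : Type*} [Group G] [Fintype G] [hMax : M.IsMaximal]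
  [hp : Fact p.Prime] [hch : CharP (KM M) p] {P : Subgroup G} {B : Set (IrrCharacter G)}

/-- induction of blocks in stages -/
theorem stages {H : Subgroup G} [Fintype H] {K : Subgroup G} (hKH : K ≤ H) {K' : Subgroup H} (hK' : K' = K.subgroupOf H)
    {c : Set (IrrCharacter H)} {c' : Set (IrrCharacter K')} (h1 : IsInducedBlock M K' c' c)
    (h2 : IsInducedBlock M H c B) : ∃ b : Set (IrrCharacter K), IsInducedBlock M K b B ∧
      ep M K b = up (KM M) H (ep M K' c') := by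
  classical
  subst hK'
  haveI : Fintype K := Fintype.ofFinite _
  haveI : Fintype (K.subgroupOf H) := Fintype.ofFinite _
  set σ : K.subgroupOf H ≃* K := Subgroup.subgroupOfEquivOfLe hKH with hσ
  have hb : IsPBlock M (tB σ c') := isPBlock_tB σ h1.1
  refine ⟨tB σ c', ?_, ?_⟩
  · obtain ⟨ξ', hξ'⟩ := block_nonempty h1.1
    obtain ⟨η, hη⟩ := block_nonempty h2.1
    obtain ⟨χ, hχ⟩ := block_nonempty h2.2.1
    have hξ : H10.BlockEFM.tr σ.symm ξ' ∈ tB σ c' := tr_mem_tB σ hξ'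
    refine isInducedBlock_of_mem K hb h2.2.1 hξ hχ ?_
    intro z hz
    have e1 := H10.BlockEFM.om_truncZ_stages K H hKH (H10.BlockEFM.tr σ.symm ξ') z
    have e0 : H10.BlockEFM.tr (Subgroup.subgroupOfEquivOfLe hKH) (H10.BlockEFM.tr σ.symm ξ') = ξ' :=
      H10.BlockEFM.tr_tr_symm σ ξ'
    rw [e0] at e1
    rw [← e1]
    have e2 := ((isInducedBlock_iff (M := M) (K.subgroupOf H) c' c).1 h1).2.2 ξ' hξ' η hη (truncZ H z) (truncZ_mem H hz)
    have e3 := ((isInducedBlock_iff (M := M) H c B).1 h2).2.2 η hη χ hχ z hz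
    have e4 := ideal_add e2 e3
    rw [sub_add_sub_cancel] at e4
    exact e4
  · symm
    apply ext_c
    intro y
    by_cases hy : y ∈ K
    · rw [up_c' _ (hKH hy), ep_c, ep_c, sbc_mem _ hy]
      have h1 : (⟨y, hKH hy⟩ : H) ∈ K.subgroupOf H := hy
      rw [sbc_mem _ h1]
      congr 1
      exact (blockCoeff_tB σ c' ⟨⟨y, hKH hy⟩, h1⟩).symm
    · rw [ep_c, sbc_notMem _ hy]
      by_cases hy' : y ∈ H
      · rw [up_c' _ hy', ep_c, sbc_notMem]
        intro h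
        exact hy h
      · rw [up_c_not _ hy']
        unfold rd
        rw [dif_pos ring_zero]
        exact (map_zero _).symm

/-- Brauer pairs of an overgroup -/
theorem up_pair (hM : IsPModular p M) {H : Subgroup G} [Fintype H] (hPH : P ≤ H) (hCH : Ce P ≤ H)
    {c : Set (IrrCharacter H)} (hind : IsInducedBlock M H c B) {E' : MonoidAlgebra (KM M) H}
    (hbp : BP p (epG M c) (P.subgroupOf H) E') : BP p (epG M B) P (up (KM M) H E') := by
  classical
  haveI : Fintype (Ce (P.subgroupOf H)) := Fintype.ofFinite _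
  obtain ⟨c', hc', rfl⟩ := exists_ep hbp.be
  have h1 : IsInducedBlock M (Ce (P.subgroupOf H)) c' c :=
    ((H25.BPInd.bpo_iff_induced hM).1 (bpo_iff.2 ⟨hind.1, hc', hbp⟩)).2
  have hCe : Ce (P.subgroupOf H) = (Ce P).subgroupOf H := by
    rw [← Ce_of (P.subgroupOf H), of_map hPH]
  obtain ⟨b, hb, hbe⟩ := stages hCH hCe h1 hind
  have h2 : IsPGroup p P := by
    have := (pg_map_iff (p := p) (P.subgroupOf H)).2 hbp.pg
    rwa [of_map hPH] at this
  obtain ⟨-, -, h3⟩ := bpo_iff.1 ((H25.BPInd.bpo_iff_induced hM).2 ⟨h2, hb⟩)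
  rw [← hbe]
  exact h3

/-- the local subgroup of the subgroup of order p -/
theorem main_local (hM : IsPModular p M) (hB : IsPBlock M B) (hPD : IsDefectGroup p M B P)
    (hcyc : IsCyclic P) {Z : Subgroup G} (hZ : Z ≤ P) (hZcard : Nat.card Z = p)
    {H : Subgroup G} [Fintype H] (hH : H = Subgroup.normalizer (Z : Set G)) {c : Set (IrrCharacter H)}
    (hcD : IsDefectGroup p M c (P.subgroupOf H)) (hc : IsInducedBlock M H c B) :
    Nat.card c = Nat.card B ∧ blockRank p c = blockRank p B ∧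
      ∃ (I : IrrCharacter H → IrrCharacter G) (ε : IrrCharacter H → ℤ), IsPerfectIsometry p M c B I ε := by
  classical
  have hab := cyc_comm hcyc
  obtain ⟨u, huZ, huo⟩ : ∃ u ∈ Z, orderOf u = p := by
    obtain ⟨x, hx⟩ := exists_prime_orderOf_dvd_card' (G := Z) p (by rw [hZcard])
    exact ⟨x, x.2, by rwa [Subgroup.orderOf_coe]⟩
  have huP : u ∈ P := hZ huZ
  have hZu : Subgroup.zpowers u = Z := by
    apply Subgroup.eq_of_le_of_card_ge (Subgroup.zpowers_le.2 huZ)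
    rw [hZcard, Nat.card_zpowers, huo]
  have hPH : P ≤ H := by
    rw [hH]
    exact (le_Ce_ab hab hZ).trans (Ce_le_Nm Z)
  have hNH : Nm P ≤ H := by
    intro n hn
    rw [hH, ← hZu]
    apply nm_of_conj
    apply Cyg.zp_mem_of_order hcyc huP _ huo (by rw [orderOf_conj]; exact huo)
    exact (Subgroup.mem_normalizer_iff.1 hn u).1 huP
  have hCH : Ce P ≤ H := (Ce_le_Nm P).trans hNH
  obtain ⟨E', hbp', htop'⟩ := H25.STs.exists_max_of hM hc.1 hcD
  have hbp := up_pair hM hPH hCH hc hbp'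
  have htop : KG.Top p P (up (KM M) H E') := top_of_dgh ((defectG_iff hM hB).1 hPD) hbp
  haveI : NeZero (Nat.card P) := ⟨Nat.card_pos.ne'⟩
  set φ : Multiplicative (ZMod (Nat.card P)) ≃* P := zmodCyclicMulEquiv hcyc with hφ
  obtain ⟨b, θ, h, hpj⟩ := exists_cfg4 hM hB hbp htop hcyc huP huo φ
  have hcyc' : IsCyclic (P.subgroupOf H) := by
    haveI := hcyc
    exact isCyclic_of_surjective (Subgroup.subgroupOfEquivOfLe hPH).symm (Subgroup.subgroupOfEquivOfLe hPH).symm.surjective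
  obtain ⟨b', θ', h', hpj'⟩ := exists_cfg4 (u := (⟨u, hPH huP⟩ : H)) hM hc.1 hbp' htop' hcyc' huP
    (by rw [Subgroup.orderOf_mk]; exact huo) (φ.trans (Subgroup.subgroupOfEquivOfLe hPH).symm)
  have hcard : Nat.card (HT φ (Nf P (up (KM M) H E'))) =
      Nat.card (HT (φ.trans (Subgroup.subgroupOfEquivOfLe hPH).symm) (Nf (P.subgroupOf H) E')) := by
    rw [card_HTN h, card_HTN h', ← Subgroup.relIndex_map_map_of_injective _ _ (Subgroup.subtype_injective H), Nf_map,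
      Rel.Ce_map (by rw [of_map hPH]; exact hCH), of_map hPH, inf_eq_left.2]
    exact fun t ht => hNH (mem_Nf.1 ht).1
  obtain ⟨X', Y', δ', ε', L', hs'⟩ := main h'
  obtain ⟨I, κ, hI, -⟩ := perfect_main h hpj h' hpj' hcard (dvd_HT h) hs'
  refine ⟨?_, ?_, I, κ, hI⟩
  · exact Nat.card_congr (Set.BijOn.equiv I hI.1)
  · rw [rank_eq h, rank_eq h', hcard]

end rel

end Cfsg.Agent.H25.Czj
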