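import Mathlib
import Cfsg.Agent.H25_Czj
import Cfsg.Agent.H10_BlockPS

/-!
H25_Czk: signs of the perfect isometries.
-/

set_option autoImplicit false
set_option linter.unusedSectionVars false

open scoped ComplexConjugate

namespace Cfsg.Agent.H25.Czk

open Cfsg Cfsg.Agent.H3 Cfsg.Agent.H3.CharIrr Cfsg.Agent.H3.CharComplete Cfsg.Agent.H3.CharBasic
  Cfsg.Agent.H10.BlockLoc Cfsg.Agent.H10.BlockAlg Cfsg.Agent.H10.BlockIdem Cfsg.Agent.H10.Char
  Cfsg.Agent.H10.BlockSMT Cfsg.Agent.H10.BlockSMT2 Cfsg.Agent.H10.BlockTrace Cfsg.Agent.H10.BlockDefect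
  Cfsg.Agent.H10.BlockMain Cfsg.Agent.H10.BlockHZ Cfsg.Agent.H10.BlockOrth
  Cfsg.Agent.H10.PPart Cfsg.Agent.H25.IndCong Cfsg.Agent.H25.Red Cfsg.Agent.H25.KG Cfsg.Agent.H25.Up
  Cfsg.Agent.H25.BPTr Cfsg.Agent.H25.BPMain Cfsg.Agent.H25.BPDef Cfsg.Agent.H25.Fus Cfsg.Agent.H25.Nilp
  Cfsg.Agent.H25.NilpAb Cfsg.Agent.H25.Rel Cfsg.Agent.H25.FMT Cfsg.Agent.H25.Sub Cfsg.Agent.H25.Sub2 Cfsg.Agent.H25.Cyk
  Cfsg.Agent.H25.Cys Cfsg.Agent.H25.Cyn Cfsg.Agent.H25.Cyi Cfsg.Agent.H25.Cyx Cfsg.Agent.H25.Cyy Cfsg.Agent.H25.Cyz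
  Cfsg.Agent.H25.Cza Cfsg.Agent.H25.Czb Cfsg.Agent.H25.Czd Cfsg.Agent.H25.Czg Cfsg.Agent.H25.Czh Cfsg.Agent.H25.Czi Cfsg.Agent.H25.Czj
  Cfsg.Agent.H10.BlockNormal Cfsg.Agent.H10.BlockKer Cfsg.Agent.H10.BlockPS

section one

variable {G : Type*} [Group G] [Fintype G] {p : ℕ} {M : Ideal AlgInt}

theorem one_block' (hM : IsPModular p M) [hp : Fact p.Prime] (N : Subgroup G) [hN : N.Normal] (hNp : IsPGroup p N)
    (hC : Subgroup.centralizer (N : Set G) ≤ N) (χ ψ : IrrCharacter G) : SameBlock M (χ : G → ℂ) (ψ : G → ℂ) := by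
  haveI := hM.2.1
  intro g
  rw [← om_cs, ← om_cs]
  by_cases hg : g ∈ Subgroup.centralizer (N : Set G)
  · have h1 := om_normal_p hM χ N hNp (hC hg)
    have h2 := om_normal_p hM ψ N hNp (hC hg)
    have := ideal_sub h1 h2
    rwa [sub_sub_sub_cancel_right] at this
  · exact ideal_sub (om_cs_mem_ideal hM N hNp χ hg) (om_cs_mem_ideal hM N hNp ψ hg)

theorem block_univ (hM : IsPModular p M) [hp : Fact p.Prime] (N : Subgroup G) [hN : N.Normal] (hNp : IsPGroup p N)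
    (hC : Subgroup.centralizer (N : Set G) ≤ N) {b : Set (IrrCharacter G)} (hb : IsPBlock M b) : b = Set.univ := by
  obtain ⟨χ, rfl⟩ := hb
  ext ψ
  exact ⟨fun _ => trivial, fun _ => one_block' hM N hNp hC _ _⟩

end one

section ident

variable {p : ℕ} {M : Ideal AlgInt} [hMax : M.IsMaximal] [hp : Fact p.Prime] [hch : CharP (KM M) p]
  {G : Type*} [Group G] [Fintype G] {P : Subgroup G} {E : MonoidAlgebra (KM M) G} {u : G}
  {B : Set (IrrCharacter G)} {b : Set (IrrCharacter (Ce (Subgroup.zpowers u)))} {q : ℕ} [NeZero q]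
  {φ : Multiplicative (ZMod q) ≃* P} {θ : ZMod q → IrrCharacter (Ce (Subgroup.zpowers u))}
  {G' : Type*} [Group G'] [Fintype G'] {P' : Subgroup G'} {E' : MonoidAlgebra (KM M) G'} {u' : G'}
  {B' : Set (IrrCharacter G')} {b' : Set (IrrCharacter (Ce (Subgroup.zpowers u')))}
  {φ' : Multiplicative (ZMod q) ≃* P'} {θ' : ZMod q → IrrCharacter (Ce (Subgroup.zpowers u'))}

/-- the matching from the two structures -/
theorem ident2 {H : Subgroup (ZMod q)ˣ} (hfree : ∀ h ∈ H, ∀ i : ZMod q, i ≠ 0 → (h : ZMod q) * i = i → h = 1)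
    {X Y : Finset (IrrCharacter G)} {δ : IrrCharacter G → ℤ} {ε : ℤ} {L : Cyh.Orb H → IrrCharacter G}
    (hs : Str B p (mu θ) H X Y δ ε L)
    {X' Y' : Finset (IrrCharacter G')} {δ' : IrrCharacter G' → ℤ} {ε' : ℤ} {L' : Cyh.Orb H → IrrCharacter G'}
    (hs' : Str B' p (mu θ') H X' Y' δ' ε' L') :
    ∃ (I : IrrCharacter G' → IrrCharacter G) (κ : IrrCharacter G' → ℤ), Set.BijOn I B' B ∧
      (∀ η ∈ B', κ η = 1 ∨ κ η = -1) ∧
      (∀ η ∈ B', ∀ i : ZMod q, i ≠ 0 → (κ η : ℂ) * Cyh.dd (mu θ) (I η) i = Cyh.dd (mu θ') η i) ∧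
      (∀ η ∈ Y', κ η = ε * ε') ∧ (∀ η ∈ X', I η ∈ X ∧ κ η = δ' η * δ (I η)) := by
  classical
  haveI : Fintype H := Fintype.ofFinite _
  have ddL := dd_L hfree hs
  have ddL' := dd_L hfree hs'
  obtain ⟨hmem, hdis, hXc, hYc, hδ, hε, hLinj, hLY, hL1, hL2, hrel⟩ := hs
  obtain ⟨hmem', hdis', hXc', hYc', hδ', hε', hLinj', hLY', hL1', hL2', hrel'⟩ := hs'
  have hXX : X'.card = X.card := hXc'.trans hXc.symm
  set f : X' ≃ X := Finset.equivOfCardEq hXX with hf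
  have hXne : X.Nonempty := by
    rw [← Finset.card_pos, hXc]; exact Nat.card_pos
  obtain ⟨χ₀, hχ₀⟩ := hXne
  set I : IrrCharacter G' → IrrCharacter G := fun η => if hη : η ∈ X' then (f ⟨η, hη⟩ : IrrCharacter G) else
    if hη' : ∃ o, L' o = η then L hη'.choose else χ₀ with hI
  set κ : IrrCharacter G' → ℤ := fun η => if η ∈ X' then δ' η * δ (I η) else ε * ε' with hκ
  have IX : ∀ η (hη : η ∈ X'), I η = f ⟨η, hη⟩ := fun η hη => dif_pos hη
  have hLX' : ∀ o, L' o ∉ X' := fun o hx => Finset.disjoint_left.1 hdis' hx ((hLY' _).2 ⟨o, rfl⟩)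
  have hLX : ∀ o, L o ∉ X := fun o hx => Finset.disjoint_left.1 hdis hx ((hLY _).2 ⟨o, rfl⟩)
  have IL : ∀ o, I (L' o) = L o := by
    intro o
    have h1 : ∃ o', L' o' = L' o := ⟨o, rfl⟩
    simp only [hI]
    rw [dif_neg (hLX' o), dif_pos h1, hLinj' h1.choose_spec]
  have hsq : ∀ z : ℤ, z = 1 ∨ z = -1 → z * z = 1 := by
    rintro z (h | h) <;> rw [h] <;> norm_num
  refine ⟨I, κ, ⟨?_, ?_, ?_⟩, ?_, ?_, ?_, ?_⟩
  · intro η hη
    rcases (hmem' η).1 hη with h1 | h1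
    · rw [IX η h1, hmem]
      exact Or.inl (f ⟨η, h1⟩).2
    · obtain ⟨o, rfl⟩ := (hLY' η).1 h1
      rw [IL, hmem]
      exact Or.inr ((hLY _).2 ⟨o, rfl⟩)
  · intro η hη η₂ hη₂ heq
    rcases (hmem' η).1 hη with h1 | h1 <;> rcases (hmem' η₂).1 hη₂ with h2 | h2
    · rw [IX η h1, IX η₂ h2] at heq
      exact congrArg Subtype.val (f.injective (Subtype.ext heq))
    · obtain ⟨o, rfl⟩ := (hLY' η₂).1 h2
      rw [IX η h1, IL] at heq
      exact absurd (heq ▸ (f ⟨η, h1⟩).2) (hLX o)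
    · obtain ⟨o, rfl⟩ := (hLY' η).1 h1
      rw [IX η₂ h2, IL] at heq
      exact absurd (heq ▸ (f ⟨η₂, h2⟩).2) (hLX o)
    · obtain ⟨o, rfl⟩ := (hLY' η).1 h1
      obtain ⟨o₂, rfl⟩ := (hLY' η₂).1 h2
      rw [IL, IL] at heq
      rw [hLinj heq]
  · intro χ hχ
    rcases (hmem χ).1 hχ with h1 | h1
    · obtain ⟨⟨η, hη⟩, h2⟩ := f.surjective ⟨χ, h1⟩
      refine ⟨η, (hmem' η).2 (Or.inl hη), ?_⟩
      rw [IX η hη, h2]
    · obtain ⟨o, rfl⟩ := (hLY χ).1 h1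
      exact ⟨L' o, (hmem' _).2 (Or.inr ((hLY' _).2 ⟨o, rfl⟩)), IL o⟩
  · intro η hη
    by_cases h1 : η ∈ X'
    · have h2 : κ η = δ' η * δ (I η) := if_pos h1
      have h3 : I η ∈ X := by rw [IX η h1]; exact (f ⟨η, h1⟩).2
      rw [h2]
      rcases (hδ' η h1).1 with e1 | e1 <;> rcases (hδ _ h3).1 with e2 | e2 <;> rw [e1, e2] <;> norm_num
    · have h2 : κ η = ε * ε' := if_neg h1
      rw [h2]
      rcases hε with e1 | e1 <;> rcases hε' with e2 | e2 <;> rw [e1, e2] <;> norm_num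
  · intro η hη i hi
    rcases (hmem' η).1 hη with h1 | h1
    · have h2 : κ η = δ' η * δ (I η) := if_pos h1
      have h3 : I η ∈ X := by rw [IX η h1]; exact (f ⟨η, h1⟩).2
      rw [h2, Cyh.dd_const _ _ (hδ _ h3).2 hi, Cyh.dd_const _ _ (hδ' _ h1).2 hi]
      have h4 := hsq _ (hδ _ h3).1
      have h5 : δ' η * δ (I η) * δ (I η) = δ' η := by rw [mul_assoc, h4, mul_one]
      exact_mod_cast h5
    · obtain ⟨o, rfl⟩ := (hLY' η).1 h1
      have h2 : κ (L' o) = ε * ε' := if_neg (hLX' o)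
      rw [h2, IL, ddL o hi, ddL' o hi]
      have h4 := hsq _ hε
      have h5 : ((ε : ℤ) : ℂ) * ((ε : ℤ) : ℂ) = 1 := by exact_mod_cast h4
      push_cast
      linear_combination (ε' : ℂ) * (∑ h : H, Cyh.ee (((h : (ZMod q)ˣ) : ZMod q) * ((Cyh.rp H o).1 * i))) * h5
  · intro η hη
    obtain ⟨o, rfl⟩ := (hLY' η).1 hη
    exact if_neg (hLX' o)
  · intro η hη
    refine ⟨?_, if_pos hη⟩
    rw [IX η hη]
    exact (f ⟨η, hη⟩).2

/-- signs from equal values -/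
theorem sign_eq {s t : ℤ} (hs : s = 1 ∨ s = -1) (ht : t = 1 ∨ t = -1) {a b : ℕ} (ha : 0 < a) (hb : 0 < b)
    (h : (s : ℂ) * a = (t : ℂ) * b) : s = t := by
  have h1 : s * (a : ℤ) = t * (b : ℤ) := by exact_mod_cast h
  rcases hs with rfl | rfl <;> rcases ht with rfl | rfl <;> first | rfl | (exfalso; omega)

/-- the main combined statement with control of the signs -/
theorem perfect_main2 (h : Cfg p M B P E u b φ θ) (hpj : PJ M θ) (h' : Cfg p M B' P' E' u' b' φ' θ') (hpj' : PJ M θ')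
    (hcard : Nat.card (HT φ (Nf P E)) = Nat.card (HT φ' (Nf P' E'))) (hdvd : Nat.card (HT φ (Nf P E)) ∣ p - 1)
    {X' Y' : Finset (IrrCharacter G')} {δ' : IrrCharacter G' → ℤ} {ε' : ℤ} {L' : Cyh.Orb (HT φ' (Nf P' E')) → IrrCharacter G'}
    (hs' : Str B' p (mu θ') (HT φ' (Nf P' E')) X' Y' δ' ε' L') :
    ∃ (I : IrrCharacter G' → IrrCharacter G) (κ : IrrCharacter G' → ℤ), IsPerfectIsometry p M B' B I κ ∧
      ∃ k, (∀ η ∈ Y', κ η = k) ∧ (Nat.card (HT φ (Nf P E)) = 1 → ∀ η ∈ X', κ η = k) := by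
  obtain ⟨n, hn⟩ := q_pow h
  have hH : HT φ (Nf P E) = HT φ' (Nf P' E') := unit_sub_eq hp.out hn rfl hcard.symm hdvd
  obtain ⟨X, Y, δ, ε, L, hs⟩ := main h
  have hfree := free h
  rw [hH] at hfree
  have hs2 : ∃ L2 : Cyh.Orb (HT φ' (Nf P' E')) → IrrCharacter G, Str B p (mu θ) (HT φ' (Nf P' E')) X Y δ ε L2 := by
    rw [← hH]
    exact ⟨L, hs⟩
  obtain ⟨L2, hs2⟩ := hs2
  obtain ⟨I, κ, h1, h2, h3, h4, h5⟩ := ident2 hfree hs2 hs'
  refine ⟨I, κ, perfect h hpj h' hpj' h1 h2 h3, _, h4, ?_⟩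
  intro hc1 η hη
  obtain ⟨h6, h7⟩ := h5 η hη
  obtain ⟨hmem, hdis, hXc, hYc, hδ, hε, hLinj, hLY, hL1, hL2, hrel⟩ := hs2
  obtain ⟨hmem', hdis', hXc', hYc', hδ', hε', hLinj', hLY', hL1', hL2', hrel'⟩ := hs'
  have hq1 : (1 : ZMod q) ≠ 0 := by
    haveI : Fact (1 < q) := ⟨q_gt h⟩
    exact one_ne_zero
  set o : Cyh.Orb (HT φ' (Nf P' E')) := Cyh.om _ ⟨1, hq1⟩ with ho
  have e1 := hrel o 1 (by rw [orderOf_one, Nat.dvd_one]; exact hp.out.one_lt.ne')
  have e2 := hrel' o 1 (by rw [orderOf_one, Nat.dvd_one]; exact hp.out.one_lt.ne')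
  rw [← hcard, hc1] at hXc'
  rw [← hcard, hc1] at hXc
  obtain ⟨ξ, hξ⟩ := Finset.card_eq_one.1 hXc
  obtain ⟨ξ', hξ'⟩ := Finset.card_eq_one.1 hXc'
  have hη' : η = ξ' := by rw [hξ'] at hη; exact Finset.mem_singleton.1 hη
  have hIη : I η = ξ := by rw [hξ] at h6; exact Finset.mem_singleton.1 h6
  rw [hξ, Finset.sum_singleton, ← charDegree_eq (L2 o).2, ← charDegree_eq ξ.2] at e1
  rw [hξ', Finset.sum_singleton, ← charDegree_eq (L' o).2, ← charDegree_eq ξ'.2] at e2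
  have e3 := sign_eq hε (hδ ξ (by rw [hξ]; exact Finset.mem_singleton_self _)).1 (charDegree_pos (L2 o).2) (charDegree_pos ξ.2) e1
  have e4 := sign_eq hε' (hδ' ξ' (by rw [hξ']; exact Finset.mem_singleton_self _)).1 (charDegree_pos (L' o).2) (charDegree_pos ξ'.2) e2
  rw [h7, hIη, hη', ← e3, ← e4, mul_comm]

end ident

section sgn

variable {p : ℕ} {G : Type*} [Group G] [Fintype G] {u : G} {B : Set (IrrCharacter G)} {q : ℕ} [NeZero q]
  {θ : ZMod q → IrrCharacter (Ce (Subgroup.zpowers u))}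

/-- the characters which are nontrivial on the normal subgroup -/
theorem sgn (hU : ∀ χ : IrrCharacter G, χ ∈ B) {H : Subgroup (ZMod q)ˣ}
    {X Y : Finset (IrrCharacter G)} {δ : IrrCharacter G → ℤ} {ε : ℤ} {L : Cyh.Orb H → IrrCharacter G}
    (hs : Str B p (mu θ) H X Y δ ε L) {N : Subgroup G} (hcm : commutator G ≤ N) (hN : N.index = Nat.card H)
    (hCN : Ce (Subgroup.zpowers u) ≤ N) (he : 1 < Nat.card H) {η η' : IrrCharacter G}
    (hη : ∃ x ∈ N, (η : G → ℂ) x ≠ (η : G → ℂ) 1) (hη' : ∃ x ∈ N, (η' : G → ℂ) x ≠ (η' : G → ℂ) 1) :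
    η = η' ∨ (η ∈ Y ∧ η' ∈ Y) := by
  classical
  letI : Fintype (Ce (Subgroup.zpowers u)) := Fintype.ofFinite _
  haveI : Fintype (IrrCharacter G) := Fintype.ofFinite _
  obtain ⟨hmem, hdis, hXc, hYc, hδ, hε, hLinj, hLY, hL1, hL2, hrel⟩ := hs
  have hLam : Nat.card (STo.Lam N) = Nat.card H := by rw [STo.card_Lam N hcm, hN]
  haveI : Finite (STo.Lam N) := Nat.finite_of_card_ne_zero (by rw [hLam]; exact Nat.card_pos.ne')
  haveI : Fintype (STo.Lam N) := Fintype.ofFinite _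
  set lc : STo.Lam N → IrrCharacter G := fun l => ⟨fun g => ((l : G →* ℂˣ) g : ℂ), CharInd.isIrr_of_hom_units _⟩ with hlc
  have hinj : Function.Injective lc := by
    intro l l' hll
    apply Subtype.ext
    apply MonoidHom.ext
    intro g
    apply Units.ext
    exact congrFun (congrArg Subtype.val hll) g
  set LT : Finset (IrrCharacter G) := Finset.univ.image lc with hLT
  have hLTc : LT.card = Nat.card H := by
    rw [hLT, Finset.card_image_of_injective _ hinj, Finset.card_univ, ← Nat.card_eq_fintype_card, hLam]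
  have htriv : ∀ χ ∈ LT, ∀ x ∈ N, (χ : G → ℂ) x = 1 := by
    intro χ hχ x hx
    obtain ⟨l, -, rfl⟩ := Finset.mem_image.1 hχ
    show (((l : G →* ℂˣ) x : ℂˣ) : ℂ) = 1
    rw [STo.mem_Lam.1 l.2 x hx, Units.val_one]
  have hnot : ∀ χ : IrrCharacter G, (∃ x ∈ N, (χ : G → ℂ) x ≠ (χ : G → ℂ) 1) → χ ∉ LT := by
    rintro χ ⟨x, hx, hne⟩ hχ
    exact hne (by rw [htriv χ hχ x hx, htriv χ hχ 1 (one_mem _)])
  have hmu : ∀ χ a, (mu θ χ a : ℂ) = classInner (fun h : Ce (Subgroup.zpowers u) => (χ : G → ℂ) h) (θ a : Ce (Subgroup.zpowers u) → ℂ) :=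
    fun χ a => (aa_spec _ χ (θ a)).symm
  have hmueq : ∀ χ ∈ LT, ∀ χ' ∈ LT, ∀ a, mu θ χ a = mu θ χ' a := by
    intro χ hχ χ' hχ' a
    have e1 : (fun h : Ce (Subgroup.zpowers u) => (χ : G → ℂ) h) = (fun h : Ce (Subgroup.zpowers u) => (χ' : G → ℂ) h) := by
      funext h
      rw [htriv χ hχ _ (hCN h.2), htriv χ' hχ' _ (hCN h.2)]
    have e2 : (mu θ χ a : ℂ) = (mu θ χ' a : ℂ) := by rw [hmu, hmu, e1]
    exact_mod_cast e2
  have hvv : ∀ χ ∈ LT, ∀ χ' ∈ LT, ∀ a, Cyh.vv (mu θ) χ a = Cyh.vv (mu θ) χ' a := by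
    intro χ hχ χ' hχ' a
    unfold Cyh.vv
    rw [hmueq χ hχ χ' hχ' 0, hmueq χ hχ χ' hχ' a]
  have hεne : -ε ≠ 0 := by rcases hε with h | h <;> rw [h] <;> norm_num
  by_cases hYL : ∃ l ∈ LT, l ∈ Y
  · left
    obtain ⟨l₀, hl₀, hl₀Y⟩ := hYL
    obtain ⟨o, rfl⟩ := (hLY l₀).1 hl₀Y
    obtain ⟨l, hl, hne⟩ := Finset.exists_mem_ne (by rw [hLTc]; exact he) (L o)
    have hlX : l ∈ X := by
      rcases (hmem l).1 (hU l) with h1 | h1
      · exact h1
      · exfalso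
        obtain ⟨o', rfl⟩ := (hLY l).1 h1
        have h2 := hL1 o (Cyh.rp H o) (Cyh.om_rp H o)
        rw [hvv _ hl₀ _ hl] at h2
        by_cases h3 : Cyh.om H (Cyh.rp H o) = o'
        · rw [Cyh.om_rp] at h3
          exact hne (by rw [h3])
        · rw [hL2 o' _ h3] at h2
          exact hεne h2.symm
    have hall : ∀ o', o' = o := by
      intro o'
      by_contra hcon
      have h3 : Cyh.om H (Cyh.rp H o') ≠ o := by rw [Cyh.om_rp]; exact hcon
      have h4 := hL2 o _ h3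
      rw [hvv _ hl₀ _ hl, (hδ l hlX).2 _ (Cyh.rp H o').2] at h4
      rcases (hδ l hlX).1 with h5 | h5 <;> rw [h5] at h4 <;> norm_num at h4
    have hY1 : Y.card = 1 := by
      rw [hYc, Nat.card_eq_one_iff_unique]
      exact ⟨⟨fun a b => by rw [hall a, hall b]⟩, ⟨o⟩⟩
    have htot : Fintype.card (IrrCharacter G) = Nat.card H + 1 := by
      rw [← Finset.card_univ, ← hXc, ← hY1, ← Finset.card_union_of_disjoint hdis]
      congr 1
      ext χ
      rw [Finset.mem_union]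
      exact ⟨fun _ => (hmem χ).1 (hU χ), fun _ => Finset.mem_univ _⟩
    by_contra hcon
    have h6 : (insert η (insert η' LT)).card = Nat.card H + 2 := by
      rw [Finset.card_insert_of_notMem, Finset.card_insert_of_notMem (hnot η' hη'), hLTc]
      rw [Finset.mem_insert]
      rintro (h7 | h7)
      · exact hcon h7
      · exact hnot η hη h7
    have h8 := Finset.card_le_univ (insert η (insert η' LT))
    rw [h6, htot] at h8
    omega
  · right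
    push Not at hYL
    have h1 : LT ⊆ X := by
      intro l hl
      rcases (hmem l).1 (hU l) with h2 | h2
      · exact h2
      · exact absurd h2 (hYL l hl)
    have h2 : LT = X := Finset.eq_of_subset_of_card_le h1 (by rw [hLTc, hXc])
    constructor
    · rcases (hmem η).1 (hU η) with h3 | h3
      · rw [← h2] at h3; exact absurd h3 (hnot η hη)
      · exact h3
    · rcases (hmem η').1 (hU η') with h3 | h3
      · rw [← h2] at h3; exact absurd h3 (hnot η' hη')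
      · exact h3

end sgn

end Cfsg.Agent.H25.Czk
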