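import Mathlib
import Cfsg.Agent.H25_Czk

/-!
H25_Czl: perfect isometries with the Frobenius type group.
-/

set_option autoImplicit false
set_option linter.unusedSectionVars false

open scoped ComplexConjugate

namespace Cfsg.Agent.H25.Czl

open Cfsg Cfsg.Agent.H3 Cfsg.Agent.H3.CharIrr Cfsg.Agent.H3.CharComplete Cfsg.Agent.H3.CharBasic
  Cfsg.Agent.H10.BlockLoc Cfsg.Agent.H10.BlockAlg Cfsg.Agent.H10.BlockIdem Cfsg.Agent.H10.Char
  Cfsg.Agent.H10.BlockSMT Cfsg.Agent.H10.BlockSMT2 Cfsg.Agent.H10.BlockTrace Cfsg.Agent.H10.BlockDefect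
  Cfsg.Agent.H10.BlockMain Cfsg.Agent.H10.BlockHZ Cfsg.Agent.H10.BlockOrth Cfsg.Agent.H10.BlockInd
  Cfsg.Agent.H10.PPart Cfsg.Agent.H25.IndCong Cfsg.Agent.H25.Red Cfsg.Agent.H25.KG Cfsg.Agent.H25.Up
  Cfsg.Agent.H25.BPTr Cfsg.Agent.H25.BPMain Cfsg.Agent.H25.BPDef Cfsg.Agent.H25.Fus Cfsg.Agent.H25.Nilp
  Cfsg.Agent.H25.NilpAb Cfsg.Agent.H25.Rel Cfsg.Agent.H25.FMT Cfsg.Agent.H25.Sub Cfsg.Agent.H25.Sub2 Cfsg.Agent.H25.Cyk
  Cfsg.Agent.H25.Cys Cfsg.Agent.H25.Cyn Cfsg.Agent.H25.Cyi Cfsg.Agent.H25.Cyx Cfsg.Agent.H25.Cyy Cfsg.Agent.H25.Cyz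
  Cfsg.Agent.H25.Cza Cfsg.Agent.H25.Czb Cfsg.Agent.H25.Czd Cfsg.Agent.H25.Czg Cfsg.Agent.H25.Czh Cfsg.Agent.H25.Czi
  Cfsg.Agent.H25.Czj Cfsg.Agent.H25.Czk Cfsg.Agent.H10.BlockKer

section frob

variable {p : ℕ} {M : Ideal AlgInt} [hMax : M.IsMaximal] [hp : Fact p.Prime] [hch : CharP (KM M) p]

theorem normal_of_sylow {F : Type*} [Group F] [Fintype F] {Q : Subgroup F} (hQp : IsPGroup p Q) {e : ℕ}
    (hidx : Q.index = e) (he : e ∣ p - 1) (he0 : 0 < e) :
    Q.Normal ∧ ∃ S : Sylow p F, (S : Subgroup F) = Q := by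
  have hp2 := hp.out.two_le
  have hlt : e < p := by
    have := Nat.le_of_dvd (by omega) he
    omega
  have hnd : ¬ p ∣ Q.index := by
    rw [hidx]
    intro h
    have := Nat.le_of_dvd he0 h
    omega
  set S : Sylow p F := hQp.toSylow hnd with hS
  have hSQ : (S : Subgroup F) = Q := rfl
  have h1 : Nat.card (Sylow p F) ≡ 1 [MOD p] := card_sylow_modEq_one p F
  have h2 : Nat.card (Sylow p F) ∣ Q.index := S.card_dvd_index
  have h3 : Nat.card (Sylow p F) ≤ e := by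
    rw [hidx] at h2
    exact Nat.le_of_dvd he0 h2
  have h4 : Nat.card (Sylow p F) = 1 := by
    have h5 := h1
    unfold Nat.ModEq at h5
    rw [Nat.mod_eq_of_lt (by omega), Nat.mod_eq_of_lt (by omega)] at h5
    exact h5
  refine ⟨?_, S, rfl⟩
  rw [Sylow.card_eq_index_normalizer S, Subgroup.index_eq_one] at h4
  exact Subgroup.normalizer_eq_top_iff.1 h4

/-- the configuration of the Frobenius type group -/
theorem frob_data (hM : IsPModular p M) {F : Type*} [Group F] [Fintype F] {Q : Subgroup F} (hQ : IsCyclic Q)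
    (hQp : IsPGroup p Q) {e : ℕ} (hidx : Q.index = e) (he : e ∣ p - 1) (he0 : 0 < e)
    (hQC : Subgroup.centralizer (Q : Set F) = Q) :
    IsPBlock M (Set.univ : Set (IrrCharacter F)) ∧ ∃ E' : MonoidAlgebra (KM M) F,
      BP p (epG M (Set.univ : Set (IrrCharacter F))) Q E' ∧ KG.Top p Q E' ∧ Nf Q E' = ⊤ := by
  classical
  obtain ⟨hQn, S, hS⟩ := normal_of_sylow hQp hidx he he0
  haveI := hQn
  have hpr : principalBlock M F = Set.univ := block_univ hM Q hQp hQC.le principal_isPBlock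
  have hU : IsPBlock M (Set.univ : Set (IrrCharacter F)) := by rw [← hpr]; exact principal_isPBlock
  have hDF : IsDefectGroup p M (Set.univ : Set (IrrCharacter F)) Q := by
    rw [← hpr]
    exact (H25.BPInd.defect_principal hM Q).2 ⟨S, hS⟩
  obtain ⟨E', hbp, htop⟩ := H25.STs.exists_max_of hM hU hDF
  refine ⟨hU, E', hbp, htop, ?_⟩
  rw [eq_top_iff]
  intro t _
  rw [mem_Nf]
  have htN : t ∈ Nm Q := by
    show t ∈ Subgroup.normalizer (Q : Set F)
    rw [Subgroup.normalizer_eq_top_iff.2 hQn]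
    trivial
  refine ⟨htN, ?_⟩
  haveI : Fintype (Ce Q) := Fintype.ofFinite _
  have hpC : IsPGroup p (Ce Q) := by
    have e1 : Ce Q = Q := hQC
    rw [e1]; exact hQp
  have hun : ∀ b : Set (IrrCharacter (Ce Q)), IsPBlock M b → b = Set.univ := fun b hb =>
    block_univ hM (⊤ : Subgroup (Ce Q)) (hpC.to_subgroup ⊤) le_top hb
  obtain ⟨b', hb', rfl⟩ := exists_ep hbp.be
  have h1 : IsBlk (Ce Q) (KG.cnj t (ep M (Ce Q) b')) := by
    have h2 := hbp.be.cnj t
    rwa [cs_Nm_Ce htN] at h2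
  obtain ⟨b'', hb'', hE⟩ := exists_ep h1
  rw [← hE, hun b' hb', hun b'' hb'']

variable {G : Type*} [Group G] [Fintype G] {P : Subgroup G} {B : Set (IrrCharacter G)}

theorem main_frob (hM : IsPModular p M) (hB : IsPBlock M B) (hPD : IsDefectGroup p M B P) (hP1 : P ≠ ⊥)
    (hcyc : IsCyclic P) {c : Set (IrrCharacter (Subgroup.centralizer (P : Set G)))}
    (hc : IsInducedBlock M (Subgroup.centralizer (P : Set G)) c B) {T : Subgroup G}
    (hT : ∀ g : G, g ∈ T ↔ (g ∈ Subgroup.normalizer (P : Set G) ∧ StabilizesBlock (Subgroup.centralizer (P : Set G)) c g))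
    {e : ℕ} (he : (Subgroup.centralizer (P : Set G)).relIndex T = e) {F : Type*} [Group F] [Fintype F]
    (hF : Nat.card F = Nat.card P * e) {Q : Subgroup F} (hQ : IsCyclic Q) (hQcard : Nat.card Q = Nat.card P)
    (hQC : Subgroup.centralizer (Q : Set F) = Q) :
    ∃ (I : IrrCharacter F → IrrCharacter G) (ε : IrrCharacter F → ℤ),
      IsPerfectIsometry p M (Set.univ : Set (IrrCharacter F)) B I ε ∧
      ∀ η η' : IrrCharacter F, (∃ x ∈ Q, (η : F → ℂ) x ≠ (η : F → ℂ) 1) →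
        (∃ x ∈ Q, (η' : F → ℂ) x ≠ (η' : F → ℂ) 1) → ε η = ε η' := by
  classical
  obtain ⟨hcb, hbp, htop⟩ := data hM hB hPD hc
  have hTeq := mem_T_iff hcb hT
  haveI : NeZero (Nat.card P) := ⟨Nat.card_pos.ne'⟩
  have hpP : p ∣ Nat.card P := by
    obtain ⟨n, hn⟩ := IsPGroup.iff_card.1 hbp.pg
    rw [hn]
    apply dvd_pow_self
    rintro rfl
    rw [pow_zero] at hn
    exact hP1 (Subgroup.card_eq_one.1 hn)
  obtain ⟨u, huP, huo⟩ : ∃ u ∈ P, orderOf u = p := by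
    obtain ⟨x, hx⟩ := exists_prime_orderOf_dvd_card' p hpP
    exact ⟨x, x.2, by rwa [Subgroup.orderOf_coe]⟩
  set φ : Multiplicative (ZMod (Nat.card P)) ≃* P := zmodCyclicMulEquiv hcyc with hφ
  obtain ⟨b, θ, h, hpj⟩ := exists_cfg4 hM hB hbp htop hcyc huP huo φ
  have hcardG : Nat.card (HT φ (Nf P (ep M (Ce P) c))) = e := by
    rw [card_HTN h, ← hTeq]; exact he
  have hdvd : e ∣ p - 1 := by rw [← hcardG]; exact dvd_HT h
  have he0 : 0 < e := by rw [← hcardG]; exact Nat.card_pos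
  have hidx : Q.index = e := by
    have h1 := Q.card_mul_index
    rw [hF, hQcard] at h1
    exact Nat.eq_of_mul_eq_mul_left Nat.card_pos h1
  have hQp : IsPGroup p Q := by
    obtain ⟨n, hn⟩ := IsPGroup.iff_card.1 hbp.pg
    exact IsPGroup.of_card (hQcard.trans hn)
  obtain ⟨hU, E', hbp', htop', hNf⟩ := frob_data hM hQ hQp hidx hdvd he0 hQC
  obtain ⟨φ'⟩ : Nonempty (Multiplicative (ZMod (Nat.card P)) ≃* Q) := by
    rw [← hQcard]
    exact ⟨zmodCyclicMulEquiv hQ⟩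
  obtain ⟨u', huQ, huo'⟩ : ∃ u' ∈ Q, orderOf u' = p := by
    obtain ⟨x, hx⟩ := exists_prime_orderOf_dvd_card' (G := Q) p (by rw [hQcard]; exact hpP)
    exact ⟨x, x.2, by rwa [Subgroup.orderOf_coe]⟩
  obtain ⟨b', θ', h', hpj'⟩ := exists_cfg4 hM hU hbp' htop' hQ huQ huo' φ'
  have hCQ : Ce Q = Q := hQC
  have hcardF : Nat.card (HT φ' (Nf Q E')) = e := by
    rw [card_HTN h', hNf, Subgroup.relIndex_top_right, hCQ, hidx]
  obtain ⟨X', Y', δ', ε', L', hs'⟩ := main h'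
  obtain ⟨I, κ, hI, k, hkY, hkX⟩ := perfect_main2 h hpj h' hpj' (hcardG.trans hcardF.symm) (dvd_HT h) hs'
  refine ⟨I, κ, hI, ?_⟩
  intro η η' hη hη'
  by_cases he1 : e = 1
  · have hall : ∀ η : IrrCharacter F, κ η = k := by
      intro ξ
      rcases (hs'.1 ξ).1 trivial with h1 | h1
      · exact hkX (by rw [hcardG, he1]) ξ h1
      · exact hkY ξ h1
    rw [hall η, hall η']
  · have hcm : commutator F ≤ Q := by
      rw [commutator_def, Subgroup.commutator_le]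
      intro x _ y _
      have htN : ∀ t : F, t ∈ Nm Q := fun t => by
        have := hNf.ge (Subgroup.mem_top t)
        exact (mem_Nf.1 this).1
      have hk : ((⟨x, htN x⟩ : Nm Q) * (⟨y, htN y⟩ : Nm Q) * (⟨x, htN x⟩ : Nm Q)⁻¹ * (⟨y, htN y⟩ : Nm Q)⁻¹) ∈ (ex φ').ker := by
        rw [MonoidHom.mem_ker]
        simp only [map_mul, map_inv]
        rw [mul_comm (ex φ' (⟨x, htN x⟩ : Nm Q)) (ex φ' (⟨y, htN y⟩ : Nm Q)), mul_inv_cancel_right, mul_inv_cancel]
      rw [ker_ex, Subgroup.mem_subgroupOf] at hk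
      rw [← hCQ]
      exact hk
    have hCN : Ce (Subgroup.zpowers u') ≤ Q := by
      intro t ht
      have hu1 : u' ≠ 1 := by
        rintro rfl
        rw [orderOf_one] at huo'
        exact hp.out.one_lt.ne huo'
      have h1 : t ∈ Ce Q := by
        refine free_cyc hM hbp' htop' hQ (by rw [hNf]; trivial) huQ hu1 ?_
        rw [cen_u, mem_Ce1] at ht
        rw [ht, mul_inv_cancel_right]
      rw [← hCQ]
      exact h1
    rcases sgn (B := (Set.univ : Set (IrrCharacter F))) (fun _ => trivial) hs' hcm (by rw [hcardF, hidx]) hCN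
      (by rw [hcardF]; omega) hη hη' with h1 | ⟨h1, h2⟩
    · rw [h1]
    · rw [hkY η h1, hkY η' h2]

end frob

end Cfsg.Agent.H25.Czl
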