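import Cfsg.Agent.H25_AbSec2
import Cfsg.Agent.H25_ExtFMT

/-! Blocks with Klein four defect group. -/

open scoped ComplexConjugate

namespace Cfsg.Agent.H25.Four

open Cfsg Cfsg.Agent.H10.BlockLoc Cfsg.Agent.H10.BlockAlg Cfsg.Agent.H10.BlockIdem
  Cfsg.Agent.H10.BlockSMT2 Cfsg.Agent.H10.BlockDefect Cfsg.Agent.H10.BlockMain
  Cfsg.Agent.H10.BlockOrth
  Cfsg.Agent.H3.CharIrr Cfsg.Agent.H25.BlockReg Cfsg.Agent.H25.BlockReg2 Cfsg.Agent.H25.IndCong
  Cfsg.Agent.H25.Red Cfsg.Agent.H25.KG Cfsg.Agent.H25.BPTr Cfsg.Agent.H25.BPMain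
  Cfsg.Agent.H25.BPDef Cfsg.Agent.H25.BPSub Cfsg.Agent.H25.BPInd Cfsg.Agent.H25.FMT
  Cfsg.Agent.H25.Fus Cfsg.Agent.H25.Nilp Cfsg.Agent.H25.NilpAb Cfsg.Agent.H25.Sub
  Cfsg.Agent.H25.AbSec Cfsg.Agent.H25.AbSec2 Cfsg.Agent.H25.Two Cfsg.Agent.H25.Two2

theorem sum_sq_four {ι : Type*} [DecidableEq ι] (s : Finset ι) (q : ι → ℤ) (h0 : ∀ i ∈ s, q i ≠ 0)
    (h : ∑ i ∈ s, q i ^ 2 = 4) : s.card = 1 ∨ s.card = 4 := by
  have hge : ∀ i ∈ s, 1 ≤ q i ^ 2 := by
    intro i hi
    have := h0 i hi
    have h2 : 0 < q i ^ 2 := by positivity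
    omega
  by_cases hall : ∀ i ∈ s, q i ^ 2 = 1
  · right
    rw [Finset.sum_congr rfl hall] at h
    simp at h
    exact_mod_cast h
  · left
    push Not at hall
    obtain ⟨j, hj, hj1⟩ := hall
    have h4 : 4 ≤ q j ^ 2 := by
      have h5 := hge j hj
      by_contra hlt
      push Not at hlt
      have h6 : q j < 2 := by nlinarith
      have h7 : -2 < q j := by nlinarith
      interval_cases hq : q j <;> omega
    rw [← Finset.add_sum_erase s _ hj] at h
    have h8 : ((s.erase j).card : ℤ) ≤ ∑ i ∈ s.erase j, q i ^ 2 := by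
      have := Finset.sum_le_sum (s := s.erase j) (f := fun _ => (1:ℤ)) (g := fun i => q i ^ 2)
        (fun i hi => hge i (Finset.mem_of_mem_erase hi))
      simpa using this
    have h9 : (s.erase j).card = 0 := by omega
    rw [Finset.card_erase_of_mem hj] at h9
    have h10 : 0 < s.card := Finset.card_pos.2 ⟨j, hj⟩
    omega

section
variable {M : Ideal AlgInt} {G : Type*} [Group G] [Fintype G] {x : G}

local instance two_fact5 : Fact (Nat.Prime 2) := ⟨Nat.prime_two⟩

theorem card_one_or_four (hM : IsPModular 2 M) (hx : orderOf x = 2) {B : Set (IrrCharacter G)}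
    (hdB : blockDefect 2 B = 2)
    {b : Set (IrrCharacter (Subgroup.centralizer ({x} : Set G)))}
    (hb : IsInducedBlock M (Subgroup.centralizer ({x} : Set G)) b B)
    (hdb : blockDefect 2 b = 2) (hl : blockRank 2 b = 1) : Nat.card B = 1 ∨ Nat.card B = 4 := by
  classical
  haveI := hM.2.1
  haveI : Fintype (Subgroup.centralizer ({x} : Set G)) := Fintype.ofFinite _
  haveI : Fintype (IrrCharacter G) := Fintype.ofFinite _
  haveI : Fintype (IrrCharacter (Subgroup.centralizer ({x} : Set G))) := Fintype.ofFinite _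
  have hx2 : ∃ k : ℕ, orderOf x = 2 ^ k := ⟨1, by rw [hx, pow_one]⟩
  set z : Subgroup.centralizer ({x} : Set G) := ⟨x, by rw [Subgroup.mem_centralizer_singleton_iff]⟩ with hz
  have hzx : (z : G) = x := rfl
  obtain ⟨φ0, d, hd, hs, h0, hd0⟩ := exists_qq hM hb.1 hl
  have hint : ∀ χ : IrrCharacter G, ∃ n : ℤ, qq b z d χ = n := by
    intro χ
    have h1 : ∀ φ : IrrCharacter (Subgroup.centralizer ({x} : Set G)), ∃ n : ℤ,
        (if φ ∈ b then classInner (fun h : Subgroup.centralizer ({x} : Set G) => (χ : G → ℂ) h)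
          (φ : Subgroup.centralizer ({x} : Set G) → ℂ) * zl z φ * (d φ : ℂ) else 0) = n := by
      intro φ
      split_ifs
      · obtain ⟨m, hm⟩ := Cfsg.Agent.H3.CharComplete.ci_char_nat
          (Brauer.IsChar.res (IsIrr.isCharacter χ.2) (Subgroup.centralizer ({x} : Set G)))
          (IsIrr.isCharacter φ.2)
        change classInner (fun h : Subgroup.centralizer ({x} : Set G) => (χ : G → ℂ) h)
          (φ : Subgroup.centralizer ({x} : Set G) → ℂ) = m at hm
        rcases zl_sign z hzx hx φ with h | h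
        · exact ⟨m * d φ, by rw [hm, h]; push_cast; ring⟩
        · exact ⟨-(m * d φ), by rw [hm, h]; push_cast; ring⟩
      · exact ⟨0, by simp⟩
    choose n hn using h1
    refine ⟨∑ φ, n φ, ?_⟩
    rw [qq, Finset.sum_congr rfl fun φ _ => hn φ]
    push_cast; rfl
  choose q hq using hint
  have hnorm : ∑ χ : IrrCharacter G, q χ ^ 2 = 4 := by
    have h1 := norm_qq hM hx2 z hzx hb.1 hd hs h0
    rw [hdb] at h1
    have h2 : ((∑ χ : IrrCharacter G, q χ ^ 2 : ℤ) : ℂ) = ((4 : ℤ) : ℂ) := by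
      push_cast
      have h3 : ∀ χ : IrrCharacter G, qq b z d χ * conj (qq b z d χ) = (q χ : ℂ) ^ 2 := by
        intro χ
        rw [hq χ, map_intCast]; ring
      rw [Finset.sum_congr rfl fun χ _ => h3 χ] at h1
      rw [h1]; norm_num
    exact_mod_cast h2
  have hzero : ∀ χ : IrrCharacter G, χ ∉ B → q χ = 0 := by
    intro χ hχ
    have h1 := qq_zero hM hx2 z hzx hb hd h0 hχ
    rw [hq] at h1
    exact_mod_cast h1
  have hne : ∀ χ ∈ B, q χ ≠ 0 := by
    intro χ hχ
    have hh : blockHeight 2 B (χ : G → ℂ) = 0 := by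
      by_contra h
      have := (pos_height hM hb.2.1 hχ (Nat.pos_of_ne_zero h)).1
      omega
    have h1 := qq_ne hM hx2 z hzx hb hd hχ hh
    rw [hq] at h1
    exact_mod_cast h1
  have hS : ∑ χ ∈ Finset.univ.filter (· ∈ B), q χ ^ 2 = 4 := by
    rw [← hnorm]
    refine Finset.sum_subset (Finset.filter_subset _ _) fun χ _ h => ?_
    rw [hzero χ (fun h' => h (by simpa using h')), zero_pow two_ne_zero]
  have hc : Nat.card B = (Finset.univ.filter (· ∈ B)).card := by
    rw [Nat.card_eq_fintype_card, Fintype.card_subtype]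
  rw [hc]
  exact sum_sq_four _ q (fun χ hχ => hne χ (by simpa using hχ)) hS

end

section main
variable {M : Ideal AlgInt} {G : Type*} [Group G] [Fintype G]

local instance two_fact6 : Fact (Nat.Prime 2) := ⟨Nat.prime_two⟩

/-- the Klein four group facts -/
structure KF (P : Subgroup G) : Prop where
  card : Nat.card P = 4
  sq : ∀ x ∈ P, x * x = 1

theorem KF.ab {P : Subgroup G} (h : KF P) : ∀ x ∈ P, ∀ y ∈ P, x * y = y * x := by
  intro x hx y hy
  have h1 := h.sq (x * y) (P.mul_mem hx hy)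
  have h2 := h.sq x hx
  have h3 := h.sq y hy
  have hx' : x⁻¹ = x := inv_eq_of_mul_eq_one_left h2
  have hy' : y⁻¹ = y := inv_eq_of_mul_eq_one_left h3
  have hxy : (x * y)⁻¹ = x * y := inv_eq_of_mul_eq_one_left h1
  rw [mul_inv_rev, hx', hy'] at hxy
  exact hxy.symm

theorem KF.order {P : Subgroup G} (h : KF P) {x : G} (hx : x ∈ P) (hx1 : x ≠ 1) : orderOf x = 2 :=
  orderOf_eq_prime (by rw [pow_two]; exact h.sq x hx) hx1

variable [hMax : M.IsMaximal] [hch : CharP (KM M) 2]

theorem main_k (hM : IsPModular 2 M) {B : Set (IrrCharacter G)} (hB : IsPBlock M B)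
    {P : Subgroup G} {E : MonoidAlgebra (KM M) G} (hP : BP 2 (epG M B) P E) (htop : KG.Top 2 P E)
    (hV : KF P) : Nat.card B = 4 ∧ blockRank 2 B + (secs 2 M B).card = 4 := by
  classical
  have hPD : DGH 2 ⊤ (epG M B) P := Top.dgh htop hP
  have hD := (defectG_iff hM hB).2 hPD
  have hc := card_defectGroup hM hB hD
  have hdB : blockDefect 2 B = 2 := by
    rw [hV.card] at hc
    have : 2 ^ 2 = 2 ^ blockDefect 2 B := by rw [← hc]; norm_num
    exact (Nat.pow_right_injective le_rfl this).symm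
  have hrank : ∀ s ∈ secs 2 M B, orderOf s.1 = 2 ∧ blockDefect 2 s.2 = 2 ∧ blockRank 2 s.2 = 1 := by
    intro s hs
    obtain ⟨y, hy, hy1, hr⟩ := sec_surj hM hB hP htop hs
    obtain ⟨h1, h2, -⟩ := sec_defect hM hP htop hV.ab hs hr
    rw [hV.order hy hy1] at h1
    have h3 : blockDefect 2 s.2 = 2 := by
      rw [hV.card] at h2
      have : 2 ^ blockDefect 2 s.2 = 2 ^ 2 := by rw [h2]; norm_num
      exact Nat.pow_right_injective le_rfl this
    refine ⟨h1, h3, ?_⟩
    haveI : Fintype (Subgroup.centralizer ({s.1} : Set G)) := Fintype.ofFinite _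
    set z : Subgroup.centralizer ({s.1} : Set G) :=
      ⟨s.1, by rw [Subgroup.mem_centralizer_singleton_iff]⟩ with hz
    have hzx : (z : G) = s.1 := rfl
    exact rank_defect_two hM (mem_secs.1 hs).2.2.1 (z := z)
      (by rw [← Subgroup.orderOf_coe, hzx, h1]) (central_of z hzx) h3
  have hk := card_eq hM hB
  rw [Finset.sum_congr rfl fun s hs => (hrank s hs).2.2, Finset.sum_const, smul_eq_mul, mul_one] at hk
  obtain ⟨y, hy, hy1⟩ : ∃ y ∈ P, y ≠ 1 := by
    by_contra h
    push Not at h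
    have : P = ⊥ := by rw [eq_bot_iff]; intro y hy; exact h y hy
    rw [this] at hV
    have := hV.card
    simp at this
  obtain ⟨s, hs, -⟩ := sec_exists hM hB hP hy hy1
  have h1 := rank_pos hM hB
  have h2 : 0 < (secs 2 M B).card := Finset.card_pos.2 ⟨s, hs⟩
  obtain ⟨h3, h4, h5⟩ := hrank s hs
  have h6 := card_one_or_four hM h3 hdB (mem_secs.1 hs).2.2 h4 h5
  omega

end main

section grp
variable {G : Type*} [Group G] [Fintype G]

/-- the nontrivial elements -/
def Inv (P : Subgroup G) : Type _ := {y : G // y ∈ P ∧ y ≠ 1}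

theorem card_Inv {P : Subgroup G} (hV : KF P) : Nat.card (Inv P) = 3 := by
  classical
  haveI : Fintype P := Fintype.ofFinite _
  have e : Inv P ≃ {y : P // y ≠ 1} :=
    { toFun := fun y => ⟨⟨y.1, y.2.1⟩, fun h => y.2.2 (congrArg Subtype.val h)⟩
      invFun := fun y => ⟨y.1.1, y.1.2, fun h => y.2 (Subtype.ext h)⟩
      left_inv := fun y => rfl
      right_inv := fun y => rfl }
  rw [Nat.card_congr e, Nat.card_eq_fintype_card, Fintype.card_subtype_compl, ← Nat.card_eq_fintype_card,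
    hV.card, Fintype.card_subtype_eq]

instance (P : Subgroup G) : Finite (Inv P) := inferInstanceAs (Finite {y : G // y ∈ P ∧ y ≠ 1})

/-- conjugation action on the nontrivial elements -/
def act {P T : Subgroup G} (hT : T ≤ Subgroup.normalizer (P : Set G)) : T →* Equiv.Perm (Inv P) where
  toFun t :=
    { toFun := fun y => ⟨t * y.1 * (t : G)⁻¹, (Subgroup.mem_normalizer_iff.1 (hT t.2) y.1).1 y.2.1,
        fun h => y.2.2 (by
          rw [mul_inv_eq_one] at h
          simpa using h)⟩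
      invFun := fun y => ⟨(t : G)⁻¹ * y.1 * t, by
          have := (Subgroup.mem_normalizer_iff.1 (hT (T.inv_mem t.2)) y.1).1 y.2.1
          rwa [inv_inv] at this,
        fun h => y.2.2 (by
          have : y.1 = (t : G) * ((t : G)⁻¹ * y.1 * t) * (t : G)⁻¹ := by group
          rw [this, h]; group)⟩
      left_inv := fun y => Subtype.ext (by show _ * (_ * _ * _) * _ = _; group)
      right_inv := fun y => Subtype.ext (by show _ * (_ * _ * _) * _ = _; group) }
  map_one' := by
    ext y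
    apply Subtype.ext
    show ((1 : T) : G) * y.1 * ((1 : T) : G)⁻¹ = y.1
    rw [Subgroup.coe_one, inv_one, one_mul, mul_one]
  map_mul' a b := by
    ext y
    apply Subtype.ext
    show ((a * b : T) : G) * y.1 * ((a * b : T) : G)⁻¹ = (a : G) * ((b : G) * y.1 * (b : G)⁻¹) * (a : G)⁻¹
    rw [Subgroup.coe_mul]; group

theorem act_apply {P T : Subgroup G} (hT : T ≤ Subgroup.normalizer (P : Set G)) (t : T) (y : Inv P) :
    (act hT t y).1 = t * y.1 * (t : G)⁻¹ := rfl

theorem act_ker {P T : Subgroup G} (hT : T ≤ Subgroup.normalizer (P : Set G)) :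
    (act hT).ker = (Subgroup.centralizer (P : Set G)).subgroupOf T := by
  ext t
  rw [MonoidHom.mem_ker, Subgroup.mem_subgroupOf, Subgroup.mem_centralizer_iff]
  constructor
  · intro h y hy
    by_cases hy1 : y = 1
    · rw [hy1, one_mul, mul_one]
    · have h1 : (t : G) * y * (t : G)⁻¹ = y := by
        have h2 := act_apply hT t (⟨y, hy, hy1⟩ : Inv P)
        rw [h] at h2
        exact h2.symm
      rw [mul_inv_eq_iff_eq_mul] at h1
      exact h1.symm
  · intro h
    ext y
    apply Subtype.ext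
    rw [act_apply, ← h y.1 y.2.1]
    show y.1 * (t : G) * (t : G)⁻¹ = y.1
    group

theorem index_dvd_six {P T : Subgroup G} (hV : KF P) (hT : T ≤ Subgroup.normalizer (P : Set G)) :
    (Subgroup.centralizer (P : Set G)).relIndex T ∣ 6 := by
  classical
  rw [Subgroup.relIndex, ← act_ker hT, Subgroup.index_ker]
  have h1 := Subgroup.card_subgroup_dvd_card (act hT).range
  have h2 : Nat.card (Equiv.Perm (Inv P)) = 6 := by
    rw [Nat.card_perm, card_Inv hV]; rfl
  rwa [h2] at h1

/-- index three: the action on the three involutions is transitive -/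
theorem transitive {P T : Subgroup G} (hV : KF P) (hT : T ≤ Subgroup.normalizer (P : Set G))
    (h3 : (Subgroup.centralizer (P : Set G)).relIndex T = 3) (y y' : G) (hy : y ∈ P) (hy1 : y ≠ 1)
    (hy' : y' ∈ P) (hy1' : y' ≠ 1) : ∃ t ∈ T, t * y * t⁻¹ = y' := by
  classical
  haveI : Fintype (Inv P) := Fintype.ofFinite _
  have hn : ((Subgroup.centralizer (P : Set G)).subgroupOf T).Normal := by
    rw [← act_ker hT]; infer_instance
  -- an element acting non-trivially
  obtain ⟨t, ht⟩ : ∃ t : T, act hT t ≠ 1 := by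
    by_contra h
    push Not at h
    have : (act hT).ker = ⊤ := by rw [eq_top_iff]; intro t _; exact h t
    rw [act_ker] at this
    rw [Subgroup.relIndex, this, Subgroup.index_top] at h3
    omega
  have ht3 : act hT t ^ 3 = 1 := by
    rw [← map_pow, ← MonoidHom.mem_ker, act_ker]
    have := Subgroup.pow_index_mem ((Subgroup.centralizer (P : Set G)).subgroupOf T) t
    rwa [← Subgroup.relIndex, h3] at this
  -- sigma is a permutation of order three of a set with three elements
  have hcard : Fintype.card (Inv P) = 3 := by rw [← Nat.card_eq_fintype_card, card_Inv hV]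
  have ho : orderOf (act hT t) = 3 := orderOf_eq_prime ht3 ht
  have hcyc : (act hT t).IsCycle :=
    Equiv.Perm.isCycle_of_prime_order'' (by rw [hcard]; exact Nat.prime_three) (by rw [ho, hcard])
  have hsup : (act hT t).support = Finset.univ := by
    rw [← Finset.card_eq_iff_eq_univ, ← hcyc.orderOf, ho, hcard]
  have hne : ∀ Y : Inv P, act hT t Y ≠ Y := fun Y => by
    rw [← Equiv.Perm.mem_support, hsup]; exact Finset.mem_univ _
  have key : ∀ Y Y' : Inv P, ∃ t ∈ T, t * Y.1 * t⁻¹ = Y'.1 := by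
    intro Y Y'
    obtain ⟨i, hi⟩ := hcyc.exists_pow_eq (hne Y) (hne Y')
    refine ⟨((t ^ i : T) : G), (t ^ i).2, ?_⟩
    rw [← map_pow] at hi
    exact congrArg Subtype.val hi
  exact key ⟨y, hy, hy1⟩ ⟨y', hy', hy1'⟩

end grp

section fin
variable {M : Ideal AlgInt} {G : Type*} [Group G] [Fintype G]
  [hMax : M.IsMaximal] [hch : CharP (KM M) 2]

local instance two_fact7 : Fact (Nat.Prime 2) := ⟨Nat.prime_two⟩

theorem idx_cases (hM : IsPModular 2 M) {B : Set (IrrCharacter G)} {P : Subgroup G}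
    {E : MonoidAlgebra (KM M) G} (hP : BP 2 (epG M B) P E) (htop : KG.Top 2 P E) (hV : KF P) :
    (Ce P).relIndex (Nf P E) = 1 ∨ (Ce P).relIndex (Nf P E) = 3 := by
  have h1 : (Ce P).relIndex (Nf P E) ∣ 6 := index_dvd_six hV inf_le_left
  have h2 : ¬ 2 ∣ (Ce P).relIndex (Nf P E) := by
    have hle : P ≤ Ce P := le_Ce_ab hV.ab le_rfl
    exact (ExtFMT.top_iff hM hP.1 (by rw [sup_eq_right.2 hle]) hP.be
      (dgh_ab hM hP htop hV.ab (LE.refl _ _)) (fun g => mem_Nf)).1 htop
  have h3 : (Ce P).relIndex (Nf P E) ≤ 6 := Nat.le_of_dvd (by norm_num) h1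
  interval_cases hh : (Ce P).relIndex (Nf P E) <;> omega

theorem secs_three (hM : IsPModular 2 M) {B : Set (IrrCharacter G)} (hB : IsPBlock M B)
    {P : Subgroup G} {E : MonoidAlgebra (KM M) G} (hP : BP 2 (epG M B) P E) (htop : KG.Top 2 P E)
    (hV : KF P) (hidx : (Ce P).relIndex (Nf P E) = 1) : (secs 2 M B).card = 3 := by
  classical
  haveI : Fintype (Inv P) := Fintype.ofFinite _
  have hex : ∀ y : Inv P, ∃ s ∈ secs 2 M B, PhiRel M 2 P E y.1 s := fun y =>
    sec_exists hM hB hP y.2.1 y.2.2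
  choose f hf hr using hex
  have h3 : Fintype.card (Inv P) = 3 := by rw [← Nat.card_eq_fintype_card, card_Inv hV]
  rw [← h3, ← Finset.card_univ]
  symm
  refine Finset.card_bij (fun y _ => f y) (fun y _ => hf y) ?_ ?_
  · intro y _ y' _ h
    have h1 := hr y
    have h2 := hr y'
    have h' : f y = f y' := h
    rw [← h'] at h2
    obtain ⟨t, ht, hty⟩ := phi_fiber hM hP htop hV.ab h1 h2
    have h4 : t ∈ Ce P := (Subgroup.relIndex_eq_one.1 hidx) ht
    rw [Subgroup.mem_centralizer_iff] at h4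
    apply Subtype.ext
    rw [← hty, ← h4 y.1 y.2.1, mul_assoc, mul_inv_cancel, mul_one]
  · intro s hs
    obtain ⟨y, hy, hy1, hys⟩ := sec_surj hM hB hP htop hs
    exact ⟨⟨y, hy, hy1⟩, Finset.mem_univ _, sec_unique hP (hf _) hs hy (hr ⟨y, hy, hy1⟩) hys⟩

theorem exists_ne {P : Subgroup G} (hV : KF P) : ∃ y ∈ P, y ≠ 1 := by
  by_contra h
  push Not at h
  have : P = ⊥ := by rw [eq_bot_iff]; intro y hy; exact h y hy
  rw [this] at hV
  have := hV.card
  simp at this

theorem secs_one (hM : IsPModular 2 M) {B : Set (IrrCharacter G)} (hB : IsPBlock M B)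
    {P : Subgroup G} {E : MonoidAlgebra (KM M) G} (hP : BP 2 (epG M B) P E) (htop : KG.Top 2 P E)
    (hV : KF P) (hidx : (Ce P).relIndex (Nf P E) = 3) : (secs 2 M B).card = 1 := by
  classical
  obtain ⟨y, hy, hy1⟩ := exists_ne hV
  obtain ⟨s, hs, hr⟩ := sec_exists hM hB hP hy hy1
  rw [Finset.card_eq_one]
  refine ⟨s, Finset.eq_singleton_iff_unique_mem.2 ⟨hs, fun s' hs' => ?_⟩⟩
  obtain ⟨y', hy', hy1', hr'⟩ := sec_surj hM hB hP htop hs'
  obtain ⟨t, ht, hty⟩ := transitive hV (T := Nf P E) inf_le_left hidx y y' hy hy1 hy' hy1'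
  have h1 := phi_conj ht hr
  rw [hty] at h1
  exact sec_unique hP hs' hs hy' hr' h1

end fin

theorem kf_of_klein {G : Type*} [Group G] [Fintype G] {P : Subgroup G} (hV : IsKleinFour P) : KF P where
  card := hV.card_four
  sq := fun x hx => by
    have := Monoid.pow_exponent_eq_one (⟨x, hx⟩ : P)
    rw [hV.exponent_two, pow_two] at this
    exact congrArg Subtype.val this

theorem s4637 {G : Type*} [Group G] [Fintype G] (M : Ideal AlgInt) (hM : IsPModular 2 M)
    (B : Set (IrrCharacter G)) (hB : IsPBlock M B) (P : Subgroup G)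
    (hPD : IsDefectGroup 2 M B P) (hV : IsKleinFour P)
    (c : Set (IrrCharacter (Subgroup.centralizer (P : Set G))))
    (hc : IsInducedBlock M (Subgroup.centralizer (P : Set G)) c B) (T : Subgroup G)
    (hT : ∀ g : G, g ∈ T ↔ (g ∈ Subgroup.normalizer (P : Set G) ∧
      StabilizesBlock (Subgroup.centralizer (P : Set G)) c g)) (e : ℕ)
    (he : (Subgroup.centralizer (P : Set G)).relIndex T = e) :
    (e = 1 ∨ e = 3) ∧ Nat.card B = 4 ∧ blockRank 2 B = e := by
  haveI : Fact (Nat.Prime 2) := ⟨Nat.prime_two⟩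
  haveI := hM.2.1
  haveI := charP_KM M hM
  obtain ⟨hcb, hbp, htop⟩ := data hM hB hPD hc
  have hTN := mem_T_iff hcb hT
  have hKF := kf_of_klein hV
  obtain ⟨hk, hl⟩ := main_k hM hB hbp htop hKF
  subst hTN
  rcases idx_cases hM hbp htop hKF with h | h
  · have h1 := secs_three hM hB hbp htop hKF h
    have h2 : e = 1 := by rw [← he]; exact h
    exact ⟨Or.inl h2, hk, by omega⟩
  · have h1 := secs_one hM hB hbp htop hKF h
    have h2 : e = 3 := by rw [← he]; exact h
    exact ⟨Or.inr h2, hk, by omega⟩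

theorem s4512 {G : Type*} [Group G] [Fintype G] (M : Ideal AlgInt) (hM : IsPModular 2 M)
    (P : Sylow 2 G) (hP : Nat.card P = 4) (hexp : ∀ x : P, x * x = 1)
    (hone : ∀ s t : G, orderOf s = 2 → orderOf t = 2 → IsConj s t) :
    blockRank 2 (principalBlock M G) = 3 := by
  classical
  haveI : Fact (Nat.Prime 2) := ⟨Nat.prime_two⟩
  haveI := hM.2.1
  haveI := charP_KM M hM
  haveI : Fintype (Subgroup.centralizer ((P : Subgroup G) : Set G)) := Fintype.ofFinite _
  have hB : IsPBlock M (principalBlock M G) := H10.BlockKer.principal_isPBlock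
  have hPD : IsDefectGroup 2 M (principalBlock M G) (P : Subgroup G) :=
    (BPInd.defect_principal hM _).2 ⟨P, rfl⟩
  have hcB : IsPBlock M (principalBlock M (Subgroup.centralizer ((P : Subgroup G) : Set G))) :=
    H10.BlockKer.principal_isPBlock
  have hc : IsInducedBlock M (Subgroup.centralizer ((P : Subgroup G) : Set G))
      (principalBlock M (Subgroup.centralizer ((P : Subgroup G) : Set G))) (principalBlock M G) :=
    (BPInd.bpo_iff_induced hM |>.1 ((BPInd.third hM P.isPGroup' hcB).2 rfl)).2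
  obtain ⟨hcb, hbp, htop⟩ := data hM hB hPD hc
  have hKF : KF (P : Subgroup G) := ⟨hP, fun x hx => congrArg Subtype.val (hexp ⟨x, hx⟩)⟩
  obtain ⟨hk, hl⟩ := main_k hM hB hbp htop hKF
  have h1 : (secs 2 M (principalBlock M G)).card = 1 := by
    obtain ⟨y, hy, hy1⟩ := exists_ne hKF
    obtain ⟨s, hs, hr⟩ := sec_exists hM hB hbp hy hy1
    rw [Finset.card_eq_one]
    refine ⟨s, Finset.eq_singleton_iff_unique_mem.2 ⟨hs, fun s' hs' => ?_⟩⟩
    have hord : ∀ s ∈ secs 2 M (principalBlock M G), orderOf s.1 = 2 := by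
      intro s hs
      obtain ⟨y, hy, hy1, hr⟩ := sec_surj hM hB hbp htop hs
      obtain ⟨h1, h2, -⟩ := sec_defect hM hbp htop hKF.ab hs hr
      rwa [hKF.order hy hy1] at h1
    have hpr : ∀ s ∈ secs 2 M (principalBlock M G),
        s.2 = principalBlock M (Subgroup.centralizer ({s.1} : Set G)) := by
      intro s hs
      haveI : Fintype (Subgroup.centralizer ({s.1} : Set G)) := Fintype.ofFinite _
      have h := (mem_secs.1 hs).2.2
      exact (H10.BlockKer.third_main hM _ ⟨_, h⟩).1 h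
    have h1 : s'.1 = s.1 := by
      have hc1 := hone s.1 s'.1 (hord s hs) (hord s' hs')
      obtain ⟨w, hw, hu⟩ := reps_unique 2 s.1 (reps_p 2 (mem_secs.1 hs).1)
      rw [hu s'.1 ⟨(mem_secs.1 hs').1, hc1⟩, hu s.1 ⟨(mem_secs.1 hs).1, IsConj.refl _⟩]
    obtain ⟨x, b⟩ := s
    obtain ⟨x', b'⟩ := s'
    have h2 := hpr _ hs
    have h3 := hpr _ hs'
    simp only at h1 h2 h3
    subst h1
    rw [h2, h3]
  omega

end Cfsg.Agent.H25.Four
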