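import Mathlib
import Cfsg.Agent.H25_Czl
import Cfsg.Agent.H25_Four

/-!
H25_Czm: an abstract criterion for perfect isometries.
-/

set_option autoImplicit false
set_option linter.unusedSectionVars false

open scoped ComplexConjugate

namespace Cfsg.Agent.H25.Czm

open Cfsg Cfsg.Agent.H3 Cfsg.Agent.H3.CharIrr Cfsg.Agent.H3.CharComplete Cfsg.Agent.H3.CharBasic
  Cfsg.Agent.H10.BlockLoc Cfsg.Agent.H10.BlockAlg Cfsg.Agent.H10.BlockIdem Cfsg.Agent.H10.Char
  Cfsg.Agent.H10.BlockSMT Cfsg.Agent.H10.BlockSMT2 Cfsg.Agent.H10.BlockTrace Cfsg.Agent.H10.BlockDefect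
  Cfsg.Agent.H10.BlockMain Cfsg.Agent.H10.BlockHZ Cfsg.Agent.H10.BlockOrth
  Cfsg.Agent.H10.PPart Cfsg.Agent.H25.IndCong Cfsg.Agent.H25.Red Cfsg.Agent.H25.KG Cfsg.Agent.H25.Up
  Cfsg.Agent.H25.BPTr Cfsg.Agent.H25.BPMain Cfsg.Agent.H25.BPDef Cfsg.Agent.H25.Fus Cfsg.Agent.H25.Nilp
  Cfsg.Agent.H25.NilpAb Cfsg.Agent.H25.Rel Cfsg.Agent.H25.FMT Cfsg.Agent.H25.Sub Cfsg.Agent.H25.Sub2 Cfsg.Agent.H25.Cyk
  Cfsg.Agent.H25.Cys Cfsg.Agent.H25.Cyn Cfsg.Agent.H25.Cyi Cfsg.Agent.H25.Cyx Cfsg.Agent.H25.Cyy Cfsg.Agent.H25.Cyz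
  Cfsg.Agent.H25.Cza Cfsg.Agent.H25.Czb Cfsg.Agent.H25.Czd Cfsg.Agent.H25.Czg Cfsg.Agent.H25.Czh
  Cfsg.Agent.H25.AbSec Cfsg.Agent.H25.AbSec2 Cfsg.Agent.H25.Four

section crit

variable {p : ℕ} {M : Ideal AlgInt} [hMax : M.IsMaximal]
  {G : Type*} [Group G] [Fintype G] {B : Set (IrrCharacter G)}
  {G' : Type*} [Group G'] [Fintype G'] {B' : Set (IrrCharacter G')}
  {ι : Type*} [Fintype ι] {D : ι → IrrCharacter G → ℂ} {D' : ι → IrrCharacter G' → ℂ}

/-- an expansion system for the singular values of a block -/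
structure Sys (p : ℕ) (M : Ideal AlgInt) {G : Type*} [Group G] [Fintype G] (B : Set (IrrCharacter G)) {ι : Type*} [Fintype ι]
    (D : ι → IrrCharacter G → ℂ) : Prop where
  out : ∀ i χ, χ ∉ B → D i χ = 0
  exp : ∀ x : G, p ∣ orderOf x → ∃ g : ι → ℂ, (∀ i, MemLocalRing M (g i)) ∧ ∀ χ ∈ B, (χ : G → ℂ) x = ∑ i, g i * D i χ
  jj : ∀ x : G, p ∣ orderOf x → ∀ i, ∀ [Fintype (IrrCharacter G)],
    MemLocalRing M ((∑ χ : IrrCharacter G, D i χ * (χ : G → ℂ) x) / (Nat.card (Subgroup.centralizer ({x} : Set G)) : ℂ))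
  reg : ∀ x : G, ¬ p ∣ orderOf x → ∀ i, ∀ [Fintype (IrrCharacter G)], ∑ χ : IrrCharacter G, D i χ * (χ : G → ℂ) x = 0

theorem Sys.reindex {κ : Type*} [Fintype κ] (h : Sys p M B D) (e : κ ≃ ι) : Sys p M B (fun k => D (e k)) where
  out i χ hχ := h.out _ χ hχ
  exp x hx := by
    obtain ⟨g, h1, h2⟩ := h.exp x hx
    refine ⟨fun k => g (e k), fun k => h1 _, fun χ hχ => ?_⟩
    rw [h2 χ hχ, ← Equiv.sum_comp e]
  jj x hx i := h.jj x hx _
  reg x hx i := h.reg x hx _

/-- the criterion -/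
theorem perfectG (hM : IsPModular p M) (h : Sys p M B D) (h' : Sys p M B' D')
    {I : IrrCharacter G' → IrrCharacter G} (hI : Set.BijOn I B' B) {ε : IrrCharacter G' → ℤ}
    (hε : ∀ η ∈ B', ε η = 1 ∨ ε η = -1)
    (hD : ∀ η ∈ B', ∀ i, (ε η : ℂ) * D i (I η) = D' i η) :
    IsPerfectIsometry p M B' B I ε := by
  classical
  haveI : Fact p.Prime := ⟨hM.1⟩
  haveI : Fintype (IrrCharacter G) := Fintype.ofFinite _
  haveI : Fintype (IrrCharacter G') := Fintype.ofFinite _
  have hεε : ∀ η ∈ B', (ε η : ℂ) * (ε η : ℂ) = 1 := by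
    intro η hη
    rcases hε η hη with h0 | h0 <;> rw [h0] <;> norm_num
  have hD' : ∀ η ∈ B', ∀ i, (ε η : ℂ) * D' i η = D i (I η) := by
    intro η hη i
    rw [← hD η hη i, ← mul_assoc, hεε η hη, one_mul]
  have expR : ∀ (x : G) (y : G'), p ∣ orderOf y → ∃ g : ι → ℂ, (∀ i, MemLocalRing M (g i)) ∧
      signedBijectionKernel B' I ε x y = ∑ k, g k * ∑ χ : IrrCharacter G, D k χ * (χ : G → ℂ) x := by
    intro x y hy
    obtain ⟨g, h1, h3⟩ := h'.exp y hy
    refine ⟨g, h1, ?_⟩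
    rw [kern_eq]
    have e1 : ∀ η : IrrCharacter G', (if η ∈ B' then (ε η : ℂ) * (I η : G → ℂ) x * (η : G' → ℂ) y else 0) =
        ∑ k, (if η ∈ B' then g k * (D k (I η) * (I η : G → ℂ) x) else 0) := by
      intro η
      by_cases hη : η ∈ B'
      · simp only [if_pos hη]
        rw [h3 η hη, Finset.mul_sum]
        refine Finset.sum_congr rfl fun k _ => ?_
        rw [← hD' η hη k]; ring
      · simp only [if_neg hη]
        rw [Finset.sum_const_zero]
    rw [Finset.sum_congr rfl fun η _ => e1 η, Finset.sum_comm]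
    refine Finset.sum_congr rfl fun k _ => ?_
    rw [sum_bij (B' := B') hI (fun χ => g k * (D k χ * (χ : G → ℂ) x)) (fun χ hχ => by
      beta_reduce
      rw [h.out k χ hχ, zero_mul, mul_zero]), Finset.mul_sum]
  have expL : ∀ (x : G) (y : G'), p ∣ orderOf x → ∃ g : ι → ℂ, (∀ i, MemLocalRing M (g i)) ∧
      signedBijectionKernel B' I ε x y = ∑ k, g k * ∑ η : IrrCharacter G', D' k η * (η : G' → ℂ) y := by
    intro x y hx
    obtain ⟨g, h1, h3⟩ := h.exp x hx
    refine ⟨g, h1, ?_⟩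
    rw [kern_eq]
    have e1 : ∀ η : IrrCharacter G', (if η ∈ B' then (ε η : ℂ) * (I η : G → ℂ) x * (η : G' → ℂ) y else 0) =
        ∑ k, g k * (D' k η * (η : G' → ℂ) y) := by
      intro η
      by_cases hη : η ∈ B'
      · rw [if_pos hη, h3 (I η) (hI.mapsTo hη), Finset.mul_sum, Finset.sum_mul]
        refine Finset.sum_congr rfl fun k _ => ?_
        rw [← hD η hη k]; ring
      · rw [if_neg hη]
        symm
        apply Finset.sum_eq_zero
        intro k _
        rw [h'.out k η hη, zero_mul, mul_zero]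
    rw [Finset.sum_congr rfl fun η _ => e1 η, Finset.sum_comm]
    exact Finset.sum_congr rfl fun k _ => (Finset.mul_sum _ _ _).symm
  have sepR : ∀ (x : G) (y : G'), ¬ p ∣ orderOf x → p ∣ orderOf y → signedBijectionKernel B' I ε x y = 0 := by
    intro x y hx hy
    obtain ⟨g, -, h2⟩ := expR x y hy
    rw [h2]
    apply Finset.sum_eq_zero
    intro k _
    rw [h.reg x hx k, mul_zero]
  have sepL : ∀ (x : G) (y : G'), p ∣ orderOf x → ¬ p ∣ orderOf y → signedBijectionKernel B' I ε x y = 0 := by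
    intro x y hx hy
    obtain ⟨g, -, h2⟩ := expL x y hx
    rw [h2]
    apply Finset.sum_eq_zero
    intro k _
    rw [h'.reg y hy k, mul_zero]
  refine ⟨hI, hε, fun x y => ?_⟩
  by_cases hx : p ∣ orderOf x <;> by_cases hy : p ∣ orderOf y
  · refine ⟨?_, ?_, Or.inl (iff_of_false (fun hh => hh hx) (fun hh => hh hy))⟩
    · obtain ⟨g, h1, h2⟩ := expR x y hy
      rw [h2, Finset.sum_div]
      refine ring_sum (M := M) _ _ fun k _ => ?_
      rw [mul_div_assoc]
      exact ring_mul (h1 k) (h.jj x hx k)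
    · obtain ⟨g, h1, h2⟩ := expL x y hx
      rw [h2, Finset.sum_div]
      refine ring_sum (M := M) _ _ fun k _ => ?_
      rw [mul_div_assoc]
      exact ring_mul (h1 k) (h'.jj y hy k)
  · rw [sepL x y hx hy, zero_div, zero_div]
    exact ⟨ring_zero, ring_zero, Or.inr rfl⟩
  · rw [sepR x y hx hy, zero_div, zero_div]
    exact ⟨ring_zero, ring_zero, Or.inr rfl⟩
  · refine ⟨?_, ?_, Or.inl (iff_of_true hx hy)⟩
    · have h1 : ∀ x' : G, signedBijectionKernel B' I ε x' y =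
          ∑ η : IrrCharacter G', (if η ∈ B' then (ε η : ℂ) * (η : G' → ℂ) y else 0) * (I η : G → ℂ) x' := by
        intro x'
        rw [kern_eq]
        refine Finset.sum_congr rfl fun η _ => ?_
        split_ifs
        · ring
        · rw [zero_mul]
      rw [h1]
      refine proj_val hM _ (fun η => ?_) (fun η : IrrCharacter G' => (I η : G → ℂ)) (fun η => IsIrr.isCharacter (I η).2)
        (fun x' hx' => ?_) x
      · split_ifs
        · exact IsIntegral.mul (isIntegral_algebraMap (R := ℤ) (A := ℂ) (x := ε η)) (IsChar.isIntegral (IsIrr.isCharacter η.2) y)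
        · exact isIntegral_zero
      · rw [← h1]
        exact sepL x' y hx' hy
    · have h1 : ∀ y' : G', signedBijectionKernel B' I ε x y' =
          ∑ η : IrrCharacter G', (if η ∈ B' then (ε η : ℂ) * (I η : G → ℂ) x else 0) * (η : G' → ℂ) y' := by
        intro y'
        rw [kern_eq]
        refine Finset.sum_congr rfl fun η _ => ?_
        split_ifs
        · ring
        · rw [zero_mul]
      rw [h1]
      refine proj_val hM _ (fun η => ?_) (fun η : IrrCharacter G' => (η : G' → ℂ)) (fun η => IsIrr.isCharacter η.2)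
        (fun y' hy' => ?_) y
      · split_ifs
        · exact IsIntegral.mul (isIntegral_algebraMap (R := ℤ) (A := ℂ) (x := ε η)) (IsChar.isIntegral (IsIrr.isCharacter (I η).2) x)
        · exact isIntegral_zero
      · rw [← h1]
        exact sepR x y' hx hy'

end crit

end Cfsg.Agent.H25.Czm
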