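import Mathlib
import Cfsg.Agent.H25_Czm

/-!
H25_Czn: expansion systems from the subsections of a block.
-/

set_option autoImplicit false
set_option linter.unusedSectionVars false

open scoped ComplexConjugate

namespace Cfsg.Agent.H25.Czn

open Cfsg Cfsg.Agent.H3 Cfsg.Agent.H3.CharIrr Cfsg.Agent.H3.CharComplete Cfsg.Agent.H3.CharBasic
  Cfsg.Agent.H10.BlockLoc Cfsg.Agent.H10.BlockAlg Cfsg.Agent.H10.BlockIdem Cfsg.Agent.H10.Char
  Cfsg.Agent.H10.BlockSMT Cfsg.Agent.H10.BlockSMT2 Cfsg.Agent.H10.BlockTrace Cfsg.Agent.H10.BlockDefect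
  Cfsg.Agent.H10.BlockMain Cfsg.Agent.H10.BlockHZ Cfsg.Agent.H10.BlockOrth
  Cfsg.Agent.H10.PPart Cfsg.Agent.H25.IndCong Cfsg.Agent.H25.Red Cfsg.Agent.H25.KG Cfsg.Agent.H25.Up
  Cfsg.Agent.H25.BPTr Cfsg.Agent.H25.BPMain Cfsg.Agent.H25.BPDef Cfsg.Agent.H25.Fus Cfsg.Agent.H25.Nilp
  Cfsg.Agent.H25.NilpAb Cfsg.Agent.H25.Rel Cfsg.Agent.H25.FMT Cfsg.Agent.H25.Sub Cfsg.Agent.H25.Sub2 Cfsg.Agent.H25.Cyk
  Cfsg.Agent.H25.Cys Cfsg.Agent.H25.Cyn Cfsg.Agent.H25.Cyi Cfsg.Agent.H25.Cyx Cfsg.Agent.H25.Cyy Cfsg.Agent.H25.Cyz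
  Cfsg.Agent.H25.Cza Cfsg.Agent.H25.Czb Cfsg.Agent.H25.Czd Cfsg.Agent.H25.Czg Cfsg.Agent.H25.Czh
  Cfsg.Agent.H25.AbSec Cfsg.Agent.H25.AbSec2 Cfsg.Agent.H25.Four Cfsg.Agent.H25.Cze Cfsg.Agent.H25.Czm Cfsg.Agent.H10.BlockKer

section sys

variable {M : Ideal AlgInt} [hMax : M.IsMaximal] {p : ℕ} [hp : Fact p.Prime]
  {G : Type*} [Group G] [Fintype G] {B : Set (IrrCharacter G)}

/-- a chosen member of a block -/
noncomputable def psi (s : Σ x : G, Set (IrrCharacter (Subgroup.centralizer ({x} : Set G)))) :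
    IrrCharacter (Subgroup.centralizer ({s.1} : Set G)) := by
  classical
  letI : Fintype (Subgroup.centralizer ({s.1} : Set G)) := Fintype.ofFinite _
  exact if h : s.2.Nonempty then h.some else triv _

theorem psi_mem {s : Σ x : G, Set (IrrCharacter (Subgroup.centralizer ({x} : Set G)))} (h : s.2.Nonempty) :
    psi s ∈ s.2 := by
  classical
  unfold psi
  rw [dif_pos h]
  exact h.some_mem

/-- the decomposition number of a subsection with one Brauer character -/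
noncomputable def Dt (s : Σ x : G, Set (IrrCharacter (Subgroup.centralizer ({x} : Set G)))) (χ : IrrCharacter G) : ℂ :=
  bp s.1 s.2 (χ : G → ℂ) 1 / (psi s : Subgroup.centralizer ({s.1} : Set G) → ℂ) 1

/-- the local hypothesis on the subsections -/
structure HL (p : ℕ) (M : Ideal AlgInt) (B : Set (IrrCharacter G)) (N : ℕ) [Fact p.Prime] : Prop where
  ag : ∀ s ∈ secs p M B, ∀ φ ∈ s.2, ∀ φ' ∈ s.2, ∀ y : Subgroup.centralizer ({s.1} : Set G), ¬ p ∣ orderOf y →
    (φ : Subgroup.centralizer ({s.1} : Set G) → ℂ) y = (φ' : Subgroup.centralizer ({s.1} : Set G) → ℂ) y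
  card : ∀ s ∈ secs p M B, Nat.card s.2 = N
  inv : ∀ s ∈ secs p M B, orderOf s.1 = 2

theorem one_reg {C : Type*} [Group C] : ¬ p ∣ orderOf (1 : C) := by
  rw [orderOf_one, Nat.dvd_one]; exact hp.out.one_lt.ne'

theorem psi_ne (s : Σ x : G, Set (IrrCharacter (Subgroup.centralizer ({x} : Set G)))) :
    (psi s : Subgroup.centralizer ({s.1} : Set G) → ℂ) 1 ≠ 0 := IsIrr.one_ne_zero (psi s).2

theorem sec_nonempty {s : Σ x : G, Set (IrrCharacter (Subgroup.centralizer ({x} : Set G)))} (hs : s ∈ secs p M B) :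
    s.2.Nonempty := by
  haveI : Fintype (Subgroup.centralizer ({s.1} : Set G)) := Fintype.ofFinite _
  exact block_nonempty (mem_secs.1 hs).2.2.1

theorem Dt_val {N : ℕ} (h : HL p M B N) {s : Σ x : G, Set (IrrCharacter (Subgroup.centralizer ({x} : Set G)))}
    (hs : s ∈ secs p M B) (χ : IrrCharacter G) {y : Subgroup.centralizer ({s.1} : Set G)} (hy : ¬ p ∣ orderOf y) :
    bp s.1 s.2 (χ : G → ℂ) y = Dt s χ * (psi s : Subgroup.centralizer ({s.1} : Set G) → ℂ) y := by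
  haveI : Fintype (Subgroup.centralizer ({s.1} : Set G)) := Fintype.ofFinite _
  obtain ⟨κ, -, hκ⟩ := bp_val (p := p) (h.ag s hs) (psi_mem (sec_nonempty hs)) χ
  have h1 : Dt s χ = κ := by
    unfold Dt
    rw [hκ 1 one_reg, mul_div_assoc, div_self (psi_ne s), mul_one]
  rw [h1, hκ y hy]

theorem Dt_out (hM : IsPModular p M) {s : Σ x : G, Set (IrrCharacter (Subgroup.centralizer ({x} : Set G)))}
    (hs : s ∈ secs p M B) {χ : IrrCharacter G} (hχ : χ ∉ B) : Dt s χ = 0 := by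
  haveI : Fintype (Subgroup.centralizer ({s.1} : Set G)) := Fintype.ofFinite _
  haveI : Fintype (IrrCharacter (Subgroup.centralizer ({s.1} : Set G))) := Fintype.ofFinite _
  haveI : Fintype (IrrCharacter G) := Fintype.ofFinite _
  unfold Dt
  rw [bp_zero hM (reps_p p (mem_secs.1 hs).1) (mem_secs.1 hs).2.2 hχ 1 one_reg, zero_div]

theorem Dt_int {N : ℕ} (h : HL p M B N) {s : Σ x : G, Set (IrrCharacter (Subgroup.centralizer ({x} : Set G)))}
    (hs : s ∈ secs p M B) (χ : IrrCharacter G) : ∃ n : ℤ, Dt s χ = n := by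
  classical
  haveI : Fintype (Subgroup.centralizer ({s.1} : Set G)) := Fintype.ofFinite _
  haveI : Fintype (IrrCharacter (Subgroup.centralizer ({s.1} : Set G))) := Fintype.ofFinite _
  haveI : Fintype (IrrCharacter G) := Fintype.ofFinite _
  have h0 : ∀ φ : IrrCharacter (Subgroup.centralizer ({s.1} : Set G)), ∃ m : ℤ, zl (zz s.1) φ = m := by
    intro φ
    have h1 : (zz s.1) ^ 2 = 1 := by
      apply Subtype.ext
      show s.1 ^ 2 = 1
      rw [← h.inv s hs]; exact pow_orderOf_eq_one _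
    have h2 := zl_order zz_comm φ (n := 2) h1
    rcases sq_eq_sq_iff_eq_or_eq_neg.1 (h2.trans (one_pow 2).symm) with h3 | h3
    · exact ⟨1, by rw [h3]; norm_num⟩
    · exact ⟨-1, by rw [h3]; norm_num⟩
  choose m hm using h0
  refine ⟨∑ φ : IrrCharacter (Subgroup.centralizer ({s.1} : Set G)), if φ ∈ s.2 then
    (aa (Subgroup.centralizer ({s.1} : Set G)) χ φ : ℤ) * m φ else 0, ?_⟩
  unfold Dt
  rw [bp_eq, div_eq_iff (psi_ne s)]
  push_cast
  rw [Finset.sum_mul]
  refine Finset.sum_congr rfl fun φ _ => ?_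
  by_cases hφ : φ ∈ s.2
  · rw [if_pos hφ, if_pos hφ, hm, h.ag s hs φ hφ (psi s) (psi_mem (sec_nonempty hs)) 1 one_reg]
  · rw [if_neg hφ, if_neg hφ, zero_mul]

end sys

section orth

variable {M : Ideal AlgInt} [hMax : M.IsMaximal] {p : ℕ} [hp : Fact p.Prime]
  {G : Type*} [Group G] [Fintype G] {B : Set (IrrCharacter G)} {N : ℕ}

/-- the part of a subsection is orthogonal to the columns of the other sections -/
theorem sec_col (hM : IsPModular p M) [Fintype (IrrCharacter G)] {x : G} {b : Set (IrrCharacter (Subgroup.centralizer ({x} : Set G)))}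
    (hb : IsPBlock M b) {z : G} (hz : ∀ c : Subgroup.centralizer ({x} : Set G), ¬ p ∣ orderOf c → ¬ IsConj (x * (c : G)) z) :
    ∑ χ : IrrCharacter G, bp x b (χ : G → ℂ) 1 * conj ((χ : G → ℂ) z) = 0 := by
  classical
  letI : Fintype (Subgroup.centralizer ({x} : Set G)) := Fintype.ofFinite _
  haveI : Fintype (IrrCharacter (Subgroup.centralizer ({x} : Set G))) := Fintype.ofFinite _
  have h1 : ∀ χ : IrrCharacter G, bp x b (χ : G → ℂ) 1 * conj ((χ : G → ℂ) z) =
      ∑ c : Subgroup.centralizer ({x} : Set G), ((Nat.card (Subgroup.centralizer ({x} : Set G)) : ℂ)⁻¹ * KB b 1 c) *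
        ((χ : G → ℂ) (x * c) * conj ((χ : G → ℂ) z)) := by
    intro χ
    unfold bp
    rw [blockPart_KB, Finset.mul_sum, Finset.sum_mul]
    exact Finset.sum_congr rfl fun c _ => by ring
  rw [Finset.sum_congr rfl fun χ _ => h1 χ, Finset.sum_comm]
  refine Finset.sum_eq_zero fun c _ => ?_
  rw [← Finset.mul_sum]
  by_cases hc : p ∣ orderOf c
  · rw [KB_sing hM hb one_reg hc, mul_zero, zero_mul]
  · rw [orth2, if_neg (hz c hc), mul_zero]

theorem ppart_conj' {x : G} (hx : ∃ k : ℕ, orderOf x = p ^ k) {x' : G} (hx' : ∃ k : ℕ, orderOf x' = p ^ k)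
    {c : Subgroup.centralizer ({x} : Set G)} (hc : ¬ p ∣ orderOf c)
    {c' : Subgroup.centralizer ({x'} : Set G)} (hc' : ¬ p ∣ orderOf c')
    (h : IsConj (x * (c : G)) (x' * (c' : G))) : IsConj x x' := by
  obtain ⟨t, ht⟩ := isConj_iff.1 h
  refine isConj_iff.2 ⟨t, ?_⟩
  have h1 : (t * x * t⁻¹) * (t * (c : G) * t⁻¹) = x' * (c' : G) := by rw [← ht]; group
  have c1 : Commute x (c : G) := (Subgroup.mem_centralizer_iff.1 c.2) x rfl
  have c2 : Commute x' (c' : G) := (Subgroup.mem_centralizer_iff.1 c'.2) x' rfl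
  have o1 : ∀ w : G, orderOf (t * w * t⁻¹) = orderOf w := fun w => by
    rw [← MulAut.conj_apply, MulEquiv.orderOf_eq]
  refine (parts_unique h1 ?_ c2 (by rw [o1]; exact hx) hx' (by rw [o1, Subgroup.orderOf_coe]; exact hc)
    (by rw [Subgroup.orderOf_coe]; exact hc')).1
  rw [Commute, SemiconjBy]
  calc t * x * t⁻¹ * (t * (c : G) * t⁻¹) = t * (x * (c : G)) * t⁻¹ := by group
    _ = t * ((c : G) * x) * t⁻¹ := by rw [c1.eq]
    _ = _ := by group

theorem Dt_real (h : HL p M B N) {s : Σ x : G, Set (IrrCharacter (Subgroup.centralizer ({x} : Set G)))}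
    (hs : s ∈ secs p M B) (χ : IrrCharacter G) : conj (Dt s χ) = Dt s χ := by
  obtain ⟨n, hn⟩ := Dt_int h hs χ
  rw [hn]; simp

theorem psi_real (s : Σ x : G, Set (IrrCharacter (Subgroup.centralizer ({x} : Set G)))) :
    conj ((psi s : Subgroup.centralizer ({s.1} : Set G) → ℂ) 1) = (psi s : Subgroup.centralizer ({s.1} : Set G) → ℂ) 1 := by
  haveI : Fintype (Subgroup.centralizer ({s.1} : Set G)) := Fintype.ofFinite _
  rw [← charDegree_eq (psi s).2]; simp

theorem Dt_col (hM : IsPModular p M) [Fintype (IrrCharacter G)] (h : HL p M B N) {s : Σ x : G, Set (IrrCharacter (Subgroup.centralizer ({x} : Set G)))}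
    (hs : s ∈ secs p M B) {z : G} (hz : ∀ c : Subgroup.centralizer ({s.1} : Set G), ¬ p ∣ orderOf c → ¬ IsConj (s.1 * (c : G)) z) :
    ∑ χ : IrrCharacter G, Dt s χ * (χ : G → ℂ) z = 0 := by
  have h1 := sec_col hM (mem_secs.1 hs).2.2.1 hz
  have h2 : ∑ χ : IrrCharacter G, Dt s χ * conj ((χ : G → ℂ) z) = 0 := by
    have h3 : ∀ χ : IrrCharacter G, Dt s χ * conj ((χ : G → ℂ) z) =
        (bp s.1 s.2 (χ : G → ℂ) 1 * conj ((χ : G → ℂ) z)) * ((psi s : Subgroup.centralizer ({s.1} : Set G) → ℂ) 1)⁻¹ := by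
      intro χ
      unfold Dt
      rw [div_eq_mul_inv]; ring
    rw [Finset.sum_congr rfl fun χ _ => h3 χ, ← Finset.sum_mul, h1, zero_mul]
  have h4 := congrArg conj h2
  rw [map_sum, map_zero] at h4
  rw [← h4]
  refine Finset.sum_congr rfl fun χ _ => ?_
  rw [map_mul, Dt_real h hs, Complex.conj_conj]

theorem Dt_orth (hM : IsPModular p M) [Fintype (IrrCharacter G)] (h : HL p M B N)
    {s : Σ x : G, Set (IrrCharacter (Subgroup.centralizer ({x} : Set G)))} (hs : s ∈ secs p M B)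
    {s' : Σ x : G, Set (IrrCharacter (Subgroup.centralizer ({x} : Set G)))} (hs' : s' ∈ secs p M B) (hne : s ≠ s') :
    ∑ χ : IrrCharacter G, Dt s χ * Dt s' χ = 0 := by
  classical
  obtain ⟨x, b⟩ := s
  obtain ⟨x', b'⟩ := s'
  by_cases hx : x = x'
  · subst hx
    letI : Fintype (Subgroup.centralizer ({x} : Set G)) := Fintype.ofFinite _
    haveI : Fintype (IrrCharacter (Subgroup.centralizer ({x} : Set G))) := Fintype.ofFinite _
    have hbb : b ≠ b' := fun h' => hne (by rw [h'])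
    have h1 := orth_bp_ne hM (reps_p p (mem_secs.1 hs).1) (mem_secs.1 hs).2.2.1 (mem_secs.1 hs').2.2.1 hbb 1 1 one_reg one_reg
    have h3 : ∀ χ : IrrCharacter G, Dt ⟨x, b⟩ χ * Dt ⟨x, b'⟩ χ =
        (bp x b (χ : G → ℂ) 1 * conj (bp x b' (χ : G → ℂ) 1)) *
          (((psi ⟨x, b⟩ : IrrCharacter (Subgroup.centralizer ({x} : Set G))) : Subgroup.centralizer ({x} : Set G) → ℂ) 1 *
           ((psi ⟨x, b'⟩ : IrrCharacter (Subgroup.centralizer ({x} : Set G))) : Subgroup.centralizer ({x} : Set G) → ℂ) 1)⁻¹ := by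
      intro χ
      rw [← Dt_real h hs' χ]
      unfold Dt
      rw [map_div₀, psi_real]
      field_simp
    rw [Finset.sum_congr rfl fun χ _ => h3 χ, ← Finset.sum_mul, h1, zero_mul]
  · have hnc : ¬ IsConj x x' := by
      intro hc
      obtain ⟨w, -, hw⟩ := reps_unique (G := G) p x (reps_p p (mem_secs.1 hs).1)
      exact hx ((hw x ⟨(mem_secs.1 hs).1, IsConj.refl x⟩).trans (hw x' ⟨(mem_secs.1 hs').1, hc⟩).symm)
    letI : Fintype (Subgroup.centralizer ({x'} : Set G)) := Fintype.ofFinite _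
    haveI : Fintype (IrrCharacter (Subgroup.centralizer ({x'} : Set G))) := Fintype.ofFinite _
    have h1 : ∀ χ : IrrCharacter G, Dt ⟨x, b⟩ χ * Dt ⟨x', b'⟩ χ =
      ∑ c : Subgroup.centralizer ({x'} : Set G), ((Nat.card (Subgroup.centralizer ({x'} : Set G)) : ℂ)⁻¹ * KB b' 1 c *
        (((psi ⟨x', b'⟩ : IrrCharacter (Subgroup.centralizer ({x'} : Set G))) : Subgroup.centralizer ({x'} : Set G) → ℂ) 1)⁻¹) *
        (Dt ⟨x, b⟩ χ * (χ : G → ℂ) (x' * c)) := by
      intro χ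
      have e1 : Dt ⟨x', b'⟩ χ = bp x' b' (χ : G → ℂ) 1 * (((psi ⟨x', b'⟩ : IrrCharacter (Subgroup.centralizer ({x'} : Set G))) :
        Subgroup.centralizer ({x'} : Set G) → ℂ) 1)⁻¹ := div_eq_mul_inv _ _
      rw [e1]
      unfold bp
      rw [blockPart_KB, Finset.mul_sum, Finset.sum_mul, Finset.mul_sum]
      exact Finset.sum_congr rfl fun c _ => by ring
    rw [Finset.sum_congr rfl fun χ _ => h1 χ, Finset.sum_comm]
    refine Finset.sum_eq_zero fun c _ => ?_
    rw [← Finset.mul_sum]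
    by_cases hc : p ∣ orderOf c
    · rw [KB_sing hM (mem_secs.1 hs').2.2.1 one_reg hc, mul_zero, zero_mul, zero_mul]
    · rw [Dt_col hM h hs, mul_zero]
      intro c' hc' hcj
      exact hnc (ppart_conj' (reps_p p (mem_secs.1 hs).1) (reps_p p (mem_secs.1 hs').1) hc' hc hcj)

theorem Dt_norm (hM : IsPModular p M) [Fintype (IrrCharacter G)] (h : HL p M B N)
    {s : Σ x : G, Set (IrrCharacter (Subgroup.centralizer ({x} : Set G)))} (hs : s ∈ secs p M B) :
    ∑ χ : IrrCharacter G, Dt s χ * Dt s χ = N := by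
  classical
  letI : Fintype (Subgroup.centralizer ({s.1} : Set G)) := Fintype.ofFinite _
  haveI : Fintype (IrrCharacter (Subgroup.centralizer ({s.1} : Set G))) := Fintype.ofFinite _
  haveI : Fintype s.2 := Fintype.ofFinite _
  have h1 := orth_bp hM (reps_p p (mem_secs.1 hs).1) (mem_secs.1 hs).2.2.1 1 1 one_reg one_reg
  have h2 : KB s.2 1 1 = N * ((psi s : Subgroup.centralizer ({s.1} : Set G) → ℂ) 1 * (psi s : Subgroup.centralizer ({s.1} : Set G) → ℂ) 1) := by
    unfold KB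
    have e1 : ∀ φ : IrrCharacter (Subgroup.centralizer ({s.1} : Set G)), (if φ ∈ s.2 then
        (φ : Subgroup.centralizer ({s.1} : Set G) → ℂ) 1 * conj ((φ : Subgroup.centralizer ({s.1} : Set G) → ℂ) 1) else 0) =
        (if φ ∈ s.2 then (psi s : Subgroup.centralizer ({s.1} : Set G) → ℂ) 1 * (psi s : Subgroup.centralizer ({s.1} : Set G) → ℂ) 1 else 0) := by
      intro φ
      by_cases hφ : φ ∈ s.2
      · rw [if_pos hφ, if_pos hφ, h.ag s hs φ hφ (psi s) (psi_mem (sec_nonempty hs)) 1 one_reg, psi_real]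
      · rw [if_neg hφ, if_neg hφ]
    rw [Finset.sum_congr rfl fun φ _ => e1 φ, ← Finset.sum_filter, Finset.sum_const, nsmul_eq_mul]
    congr 2
    rw [← h.card s hs, Nat.card_eq_fintype_card, Fintype.card_subtype]
  have h3 : ∀ χ : IrrCharacter G, Dt s χ * Dt s χ =
      (bp s.1 s.2 (χ : G → ℂ) 1 * conj (bp s.1 s.2 (χ : G → ℂ) 1)) *
        ((psi s : Subgroup.centralizer ({s.1} : Set G) → ℂ) 1 * (psi s : Subgroup.centralizer ({s.1} : Set G) → ℂ) 1)⁻¹ := by
    intro χ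
    have e1 : Dt s χ * Dt s χ = Dt s χ * conj (Dt s χ) := by rw [Dt_real h hs χ]
    rw [e1]
    unfold Dt
    rw [map_div₀, psi_real]
    field_simp
  rw [Finset.sum_congr rfl fun χ _ => h3 χ, ← Finset.sum_mul, h1, h2, mul_assoc, mul_inv_cancel₀, mul_one]
  exact mul_ne_zero (psi_ne s) (psi_ne s)

open Classical in
/-- the expansion coefficient -/
noncomputable def gc (s : Σ x : G, Set (IrrCharacter (Subgroup.centralizer ({x} : Set G)))) (x₀ y : G) : ℂ :=
  if h : s.1 = x₀ ∧ y ∈ Subgroup.centralizer ({s.1} : Set G) then (psi s : Subgroup.centralizer ({s.1} : Set G) → ℂ) ⟨y, h.2⟩ else 0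

/-- the expansion of the singular values -/
theorem expn (hM : IsPModular p M) (hB : IsPBlock M B) (h : HL p M B N) {x : G} (hx : p ∣ orderOf x) :
    ∃ x₀ ∈ reps (G := G) p, x₀ ≠ 1 ∧ ∃ y : Subgroup.centralizer ({x₀} : Set G), ¬ p ∣ orderOf y ∧ IsConj x (x₀ * (y : G)) ∧
      ∀ χ ∈ B, (χ : G → ℂ) x = ∑ s : {s // s ∈ secs p M B}, gc s.1 x₀ y * Dt s.1 χ := by
  classical
  obtain ⟨u, v, huv, hc, hu, hv⟩ := exists_ppart (p := p) x
  obtain ⟨x₀, ⟨hx₀, hcj⟩, -⟩ := reps_unique (G := G) p u hu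
  obtain ⟨t, ht⟩ := isConj_iff.1 hcj
  have hx1 : x₀ ≠ 1 := by
    rintro rfl
    have h1 : u = 1 := by
      have : u = t⁻¹ * 1 * t := by rw [← ht]; group
      rw [this]; group
    rw [h1, one_mul] at huv
    exact hv (huv ▸ hx)
  have hy : t * v * t⁻¹ ∈ Subgroup.centralizer ({x₀} : Set G) := by
    rw [Subgroup.mem_centralizer_singleton_iff, ← ht]
    calc t * v * t⁻¹ * (t * u * t⁻¹) = t * (v * u) * t⁻¹ := by group
      _ = t * (u * v) * t⁻¹ := by rw [hc.eq]
      _ = _ := by group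
  have hyo : ¬ p ∣ orderOf (⟨t * v * t⁻¹, hy⟩ : Subgroup.centralizer ({x₀} : Set G)) := by
    rw [← Subgroup.orderOf_coe]
    show ¬ p ∣ orderOf (t * v * t⁻¹)
    rw [← MulAut.conj_apply, MulEquiv.orderOf_eq]
    exact hv
  have hcc : IsConj x (x₀ * (t * v * t⁻¹)) := isConj_iff.2 ⟨t, by rw [← huv, ← ht]; group⟩
  refine ⟨x₀, hx₀, hx1, ⟨_, hy⟩, hyo, hcc, fun χ hχ => ?_⟩
  letI : Fintype (Subgroup.centralizer ({x₀} : Set G)) := Fintype.ofFinite _
  haveI : Fintype (IrrCharacter G) := Fintype.ofFinite _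
  have e0 : (χ : G → ℂ) x = (χ : G → ℂ) (x₀ * (⟨t * v * t⁻¹, hy⟩ : Subgroup.centralizer ({x₀} : Set G))) := by
    obtain ⟨w, hw⟩ := isConj_iff.1 hcc
    show _ = (χ : G → ℂ) (x₀ * (t * v * t⁻¹))
    rw [← hw]
    exact ((IsIrr.isClass χ.2) x w).symm
  rw [e0, sec_eq_sum hM (reps_p p hx₀) hB hχ _ hyo]
  have e1 : (blocks (Subgroup.centralizer ({x₀} : Set G)) M).filter
      (fun b => IsInducedBlock M (Subgroup.centralizer ({x₀} : Set G)) b B) = iB M B x₀ := by
    ext b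
    rw [mem_iB, Finset.mem_filter, mem_blocks]
    exact ⟨fun h => h.2, fun h => ⟨h.1, h⟩⟩
  rw [e1]
  rw [Finset.sum_coe_sort (secs p M B) (fun s => gc s x₀ (t * v * t⁻¹) * Dt s χ), secs, Finset.sum_sigma,
    Finset.sum_eq_single_of_mem x₀ (Finset.mem_erase.2 ⟨hx1, hx₀⟩)]
  · refine Finset.sum_congr rfl fun b hb => ?_
    have hs : (⟨x₀, b⟩ : Σ x : G, Set (IrrCharacter (Subgroup.centralizer ({x} : Set G)))) ∈ secs p M B :=
      mem_secs.2 ⟨hx₀, hx1, mem_iB.1 hb⟩
    unfold gc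
    rw [dif_pos ⟨rfl, hy⟩, mul_comm]
    exact Dt_val h hs χ hyo
  · intro x' _ hx'
    refine Finset.sum_eq_zero fun b _ => ?_
    unfold gc
    rw [dif_neg (fun hh => hx' hh.1), zero_mul]

/-- the expansion system of a block -/
theorem sysOf (hM : IsPModular p M) (hB : IsPBlock M B) (h : HL p M B N) :
    Sys p M B (fun s : {s // s ∈ secs p M B} => Dt s.1) where
  out s χ hχ := Dt_out hM s.2 hχ
  exp x hx := by
    obtain ⟨x₀, -, -, y, -, -, h1⟩ := expn hM hB h hx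
    refine ⟨fun s => gc s.1 x₀ y, fun s => ?_, h1⟩
    show MemLocalRing M (gc s.1 x₀ y)
    unfold gc
    split_ifs with hh
    · haveI : Fintype (Subgroup.centralizer ({s.1.1} : Set G)) := Fintype.ofFinite _
      exact memLocalRing_of_integral hM.2.1.ne_top (IsChar.isIntegral (IsIrr.isCharacter (psi s.1).2) _)
    · exact ring_zero
  jj x hx s _ := by
    classical
    obtain ⟨x₀, hx₀, hx1, y, hy, hcj, h1⟩ := expn hM hB h hx
    have h2 : ∑ χ : IrrCharacter G, Dt s.1 χ * (χ : G → ℂ) x = gc s.1 x₀ y * N := by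
      have e1 : ∀ χ : IrrCharacter G, Dt s.1 χ * (χ : G → ℂ) x =
          ∑ s' : {s // s ∈ secs p M B}, gc s'.1 x₀ y * (Dt s.1 χ * Dt s'.1 χ) := by
        intro χ
        by_cases hχ : χ ∈ B
        · rw [h1 χ hχ, Finset.mul_sum]
          exact Finset.sum_congr rfl fun s' _ => by ring
        · rw [Dt_out hM s.2 hχ, zero_mul]
          symm
          exact Finset.sum_eq_zero fun s' _ => by rw [zero_mul, mul_zero]
      rw [Finset.sum_congr rfl fun χ _ => e1 χ, Finset.sum_comm, Finset.sum_eq_single s]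
      · rw [← Finset.mul_sum, Dt_norm hM h s.2]
      · intro s' _ hne
        rw [← Finset.mul_sum, Dt_orth hM h s.2 s'.2 (fun hh => hne (Subtype.ext hh).symm), mul_zero]
      · intro hh; exact absurd (Finset.mem_univ _) hh
    rw [h2]
    unfold gc
    split_ifs with hh
    · obtain ⟨⟨x', b⟩, hs⟩ := s
      obtain ⟨hxx, hyy⟩ := hh
      dsimp only at hxx hyy
      subst hxx
      haveI : Fintype (Subgroup.centralizer ({x'} : Set G)) := Fintype.ofFinite _
      haveI : CharP (KM M) p := charP_KM M hM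
      have h3 := nil_proj hM (mem_secs.1 hs).2.2.1 (h.ag _ hs) (psi_mem (sec_nonempty hs)) hy
      rw [h.card _ hs] at h3
      rw [← Cfsg.Agent.H10.BlockFMT.card_centralizer_conj hcj, Cfsg.Agent.H10.BlockPrin.card_centralizer_section (reps_p p hx₀) y hy, mul_comm]
      exact h3
    · rw [zero_mul, zero_div]; exact ring_zero
  reg x hx s _ := by
    refine Dt_col hM h s.2 fun c hc hcj => hx ?_
    rw [← orderOf_conj' hcj]
    have c1 : Commute s.1.1 (c : G) := (Subgroup.mem_centralizer_iff.1 c.2) s.1.1 rfl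
    by_contra hno
    have h1 : s.1.1 = 1 := by
      have hk := reps_p p (mem_secs.1 s.2).1
      exact (parts_unique (p := p) (x := s.1.1) (y := (c : G)) (x' := 1) (y' := s.1.1 * (c : G)) (by rw [one_mul]) c1
        (Commute.one_left _) hk ⟨0, by rw [orderOf_one, pow_zero]⟩ (by rw [Subgroup.orderOf_coe]; exact hc) hno).1
    exact (mem_secs.1 s.2).2.1 h1

end orth

end Cfsg.Agent.H25.Czn
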