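import Mathlib
import Cfsg.Agent.H25_Czn

/-!
H25_Czo: matching of sign systems on blocks with four characters.
-/

set_option autoImplicit false
set_option linter.unusedSectionVars false

open scoped ComplexConjugate

namespace Cfsg.Agent.H25.Czo

open Cfsg Cfsg.Agent.H3 Cfsg.Agent.H3.CharIrr Cfsg.Agent.H3.CharComplete Cfsg.Agent.H3.CharBasic
  Cfsg.Agent.H10.BlockLoc Cfsg.Agent.H10.BlockAlg Cfsg.Agent.H10.BlockIdem Cfsg.Agent.H10.Char
  Cfsg.Agent.H10.BlockSMT Cfsg.Agent.H10.BlockSMT2 Cfsg.Agent.H10.BlockTrace Cfsg.Agent.H10.BlockDefect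
  Cfsg.Agent.H10.BlockMain Cfsg.Agent.H10.BlockHZ Cfsg.Agent.H10.BlockOrth
  Cfsg.Agent.H10.PPart Cfsg.Agent.H25.IndCong Cfsg.Agent.H25.Red Cfsg.Agent.H25.KG Cfsg.Agent.H25.Up
  Cfsg.Agent.H25.BPTr Cfsg.Agent.H25.BPMain Cfsg.Agent.H25.BPDef Cfsg.Agent.H25.Fus Cfsg.Agent.H25.Nilp
  Cfsg.Agent.H25.NilpAb Cfsg.Agent.H25.Rel Cfsg.Agent.H25.FMT Cfsg.Agent.H25.Sub Cfsg.Agent.H25.Sub2 Cfsg.Agent.H25.Cyk
  Cfsg.Agent.H25.Cys Cfsg.Agent.H25.Cyn Cfsg.Agent.H25.Cyi Cfsg.Agent.H25.Cyx Cfsg.Agent.H25.Cyy Cfsg.Agent.H25.Cyz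
  Cfsg.Agent.H25.Cza Cfsg.Agent.H25.Czb Cfsg.Agent.H25.Czd Cfsg.Agent.H25.Czg Cfsg.Agent.H25.Czh
  Cfsg.Agent.H25.AbSec Cfsg.Agent.H25.AbSec2 Cfsg.Agent.H25.Four Cfsg.Agent.H25.Cze Cfsg.Agent.H25.Czm Cfsg.Agent.H10.BlockKer
  Cfsg.Agent.H25.Czn

section comb

theorem nine {a : Fin 4 → ℤ} (ha : ∀ j, a j = 1 ∨ a j = 9) (hs : ∑ j, a j = 12) :
    ∃! j, a j = 9 := by
  rw [Fin.sum_univ_four] at hs
  rcases ha 0 with h0 | h0 <;> rcases ha 1 with h1 | h1 <;> rcases ha 2 with h2 | h2 <;> rcases ha 3 with h3 | h3 <;>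
    rw [h0, h1, h2, h3] at hs
  all_goals first
    | (exfalso; norm_num at hs; done)
    | skip
  · refine ⟨3, h3, fun j hj => ?_⟩
    fin_cases j <;> simp_all
  · refine ⟨2, h2, fun j hj => ?_⟩
    fin_cases j <;> simp_all
  · refine ⟨1, h1, fun j hj => ?_⟩
    fin_cases j <;> simp_all
  · refine ⟨0, h0, fun j hj => ?_⟩
    fin_cases j <;> simp_all

/-- columns of a sign matrix -/
theorem col_unique {v : Fin 3 → Fin 4 → ℤ} (hv : ∀ i j, v i j = 1 ∨ v i j = -1)
    (ov : ∀ i i', i ≠ i' → ∑ j, v i j * v i' j = 0) {s : Fin 3 → ℤ} (hs : ∀ i, s i = 1 ∨ s i = -1) :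
    ∃! j, ∃ κ : ℤ, (κ = 1 ∨ κ = -1) ∧ ∀ i, κ * v i j = s i := by
  have hvv : ∀ i j, v i j * v i j = 1 := fun i j => by rcases hv i j with h | h <;> rw [h] <;> norm_num
  have hss : ∀ i, s i * s i = 1 := fun i => by rcases hs i with h | h <;> rw [h] <;> norm_num
  have h01 := ov 0 1 (by decide)
  have h02 := ov 0 2 (by decide)
  have h12 := ov 1 2 (by decide)
  have key : ∃! j, (∑ i, s i * v i j) ^ 2 = 9 := by
    refine nine (a := fun j => (∑ i, s i * v i j) ^ 2) (fun j => ?_) ?_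
    · beta_reduce
      rw [Fin.sum_univ_three]
      rcases hv 0 j with a | a <;> rcases hv 1 j with b | b <;> rcases hv 2 j with c | c <;>
        rcases hs 0 with d | d <;> rcases hs 1 with e | e <;> rcases hs 2 with f | f <;>
        rw [a, b, c, d, e, f] <;> norm_num
    · simp only [Fin.sum_univ_four, Fin.sum_univ_three] at h01 h02 h12 ⊢
      have e0 := hvv 0 0; have e1 := hvv 0 1; have e2 := hvv 0 2; have e3 := hvv 0 3
      have f0 := hvv 1 0; have f1 := hvv 1 1; have f2 := hvv 1 2; have f3 := hvv 1 3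
      have g0 := hvv 2 0; have g1 := hvv 2 1; have g2 := hvv 2 2; have g3 := hvv 2 3
      have k0 := hss 0; have k1 := hss 1; have k2 := hss 2
      linear_combination (s 0 * s 0) * (e0 + e1 + e2 + e3) + (s 1 * s 1) * (f0 + f1 + f2 + f3) +
        (s 2 * s 2) * (g0 + g1 + g2 + g3) + 4 * k0 + 4 * k1 + 4 * k2 + 2 * s 0 * s 1 * h01 + 2 * s 0 * s 2 * h02 +
        2 * s 1 * s 2 * h12
  have iff1 : ∀ j, (∑ i, s i * v i j) ^ 2 = 9 ↔ ∃ κ : ℤ, (κ = 1 ∨ κ = -1) ∧ ∀ i, κ * v i j = s i := by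
    intro j
    constructor
    · intro h
      rw [Fin.sum_univ_three] at h
      have hh : (∀ i, v i j = s i) ∨ (∀ i, - v i j = s i) := by
        simp only [Fin.forall_fin_succ, Fin.forall_fin_zero]
        rcases hv 0 j with a | a <;> rcases hv 1 j with b | b <;> rcases hv 2 j with c | c <;>
        rcases hs 0 with d | d <;> rcases hs 1 with e | e <;> rcases hs 2 with f | f <;>
        rw [a, b, c, d, e, f] at h <;> norm_num at h <;> simp [a, b, c, d, e, f]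
      rcases hh with hh | hh
      · exact ⟨1, Or.inl rfl, fun i => by rw [one_mul]; exact hh i⟩
      · exact ⟨-1, Or.inr rfl, fun i => by rw [neg_one_mul]; exact hh i⟩
    · rintro ⟨κ, hκ, h⟩
      have h1 : ∀ i, s i * v i j = κ := fun i => by
        rw [← h i, mul_assoc, hvv, mul_one]
      rw [Fin.sum_univ_three, h1, h1, h1]
      rcases hκ with h | h <;> rw [h] <;> norm_num
  obtain ⟨j, hj, hu⟩ := key
  exact ⟨j, (iff1 j).1 hj, fun j' hj' => hu j' ((iff1 j').2 hj')⟩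

theorem comb3 {v w : Fin 3 → Fin 4 → ℤ} (hv : ∀ i j, v i j = 1 ∨ v i j = -1)
    (ov : ∀ i i', i ≠ i' → ∑ j, v i j * v i' j = 0) (hw : ∀ i j, w i j = 1 ∨ w i j = -1)
    (ow : ∀ i i', i ≠ i' → ∑ j, w i j * w i' j = 0) :
    ∃ π : Fin 4 → Fin 4, Function.Bijective π ∧ ∃ ε : Fin 4 → ℤ, ∀ j, (ε j = 1 ∨ ε j = -1) ∧ ∀ i, ε j * v i (π j) = w i j := by
  choose π hπ hu using fun j => col_unique hv ov (s := fun i => w i j) (fun i => hw i j)
  choose ε hε hεw using hπ
  refine ⟨π, ?_, ε, fun j => ⟨hε j, hεw j⟩⟩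
  rw [← Finite.injective_iff_bijective]
  intro j j' hjj
  obtain ⟨j₀, -, hj₀⟩ := col_unique hw ow (s := fun i => w i j) (fun i => hw i j)
  have h1 : j = j₀ := hj₀ j ⟨1, Or.inl rfl, fun i => one_mul _⟩
  have hsq : ∀ j, ε j * ε j = 1 := fun j => by rcases hε j with h | h <;> rw [h] <;> norm_num
  have h2 : j' = j₀ := hj₀ j' ⟨ε j * ε j', by
    rcases hε j with h | h <;> rcases hε j' with h' | h' <;> rw [h, h'] <;> norm_num, fun i => by
      beta_reduce
      rw [← hεw j' i, ← hεw j i, ← hjj]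
      linear_combination (ε j * v i (π j)) * hsq j'⟩
  rw [h1, h2]

theorem comb1 {v w : Fin 1 → Fin 4 → ℤ} (hv : ∀ i j, v i j = 1 ∨ v i j = -1)
    (hw : ∀ i j, w i j = 1 ∨ w i j = -1) :
    ∃ π : Fin 4 → Fin 4, Function.Bijective π ∧ ∃ ε : Fin 4 → ℤ, ∀ j, (ε j = 1 ∨ ε j = -1) ∧ ∀ i, ε j * v i (π j) = w i j := by
  refine ⟨id, Function.bijective_id, fun j => v 0 j * w 0 j, fun j => ⟨?_, fun i => ?_⟩⟩
  · rcases hv 0 j with h | h <;> rcases hw 0 j with h' | h' <;> beta_reduce <;> rw [h, h'] <;> norm_num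
  · have : i = 0 := Subsingleton.elim _ _
    subst this
    rcases hv 0 j with h | h <;> rcases hw 0 j with h' | h' <;> beta_reduce <;> simp only [id] <;> rw [h, h'] <;> norm_num

theorem four_signs {n : Fin 4 → ℤ} {d : Fin 4 → ℕ} (hd : ∀ j, 0 < d j) (hn : ∑ j, n j * n j = 4) (hz : ∑ j, n j * (d j : ℤ) = 0) :
    ∀ j, n j = 1 ∨ n j = -1 := by
  have hb : ∀ j, n j * n j ≤ 4 := fun j => by
    rw [← hn]
    exact Finset.single_le_sum (fun i _ => mul_self_nonneg (n i)) (Finset.mem_univ j)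
  have h2 : ∀ j, n j ≠ 2 ∧ n j ≠ -2 := by
    intro j
    have key : n j * n j = 4 → False := by
      intro h4
      have h0 : ∀ i, i ≠ j → n i = 0 := by
        intro i hi
        have h5 : n i * n i + n j * n j ≤ ∑ j, n j * n j := by
          rw [← Finset.sum_pair hi (f := fun i => n i * n i)]
          exact Finset.sum_le_univ_sum_of_nonneg fun i => mul_self_nonneg (n i)
        have h6 : n i * n i ≤ 0 := by rw [hn] at h5; linarith
        exact mul_self_eq_zero.1 (le_antisymm h6 (mul_self_nonneg _))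
      rw [Finset.sum_eq_single j (fun i _ hi => by rw [h0 i hi, zero_mul]) (fun h => absurd (Finset.mem_univ _) h)] at hz
      rcases mul_eq_zero.1 hz with h7 | h7
      · rw [h7] at h4; norm_num at h4
      · have := hd j; omega
    constructor <;> intro h <;> exact key (by rw [h]; norm_num)
  have h3 : ∀ j, n j = 0 ∨ n j = 1 ∨ n j = -1 := by
    intro j
    have h4 := hb j
    have h5 : n j ≤ 2 := by nlinarith
    have h6 : -2 ≤ n j := by nlinarith
    have h7 := h2 j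
    omega
  rw [Fin.sum_univ_four] at hn
  intro j
  rcases h3 0 with a | a | a <;> rcases h3 1 with b | b | b <;> rcases h3 2 with c | c | c <;> rcases h3 3 with d | d | d <;>
    rw [a, b, c, d] at hn <;> norm_num at hn <;> fin_cases j <;> simp [a, b, c, d]

end comb

section perf

variable {M : Ideal AlgInt} [hMax : M.IsMaximal] {G : Type*} [Group G] [Fintype G] {B : Set (IrrCharacter G)}
  {G' : Type*} [Group G'] [Fintype G'] {B' : Set (IrrCharacter G')}

theorem sum_B [Fintype (IrrCharacter G)] (e : Fin 4 ≃ B) (f : IrrCharacter G → ℂ) (hf : ∀ χ, χ ∉ B → f χ = 0) :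
    ∑ χ, f χ = ∑ i, f (e i) := by
  classical
  haveI : Fintype B := Fintype.ofFinite _
  rw [Equiv.sum_comp e (fun χ : B => f χ), ← Finset.sum_subtype (Finset.univ.filter fun χ => χ ∈ B)
    (p := fun χ => χ ∈ B) (fun χ => by simp), Finset.sum_filter]
  refine Finset.sum_congr rfl fun χ _ => ?_
  split_ifs with h
  · rfl
  · exact hf χ h

theorem signs4 (hM : IsPModular 2 M) (hB : IsPBlock M B) (h : HL 2 M B 4) (e : Fin 4 ≃ B) :
    ∃ v : {s // s ∈ secs 2 M B} → Fin 4 → ℤ, (∀ s i, Dt s.1 (e i : IrrCharacter G) = v s i) ∧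
      (∀ s i, v s i = 1 ∨ v s i = -1) ∧ (∀ s s', s ≠ s' → ∑ i, v s i * v s' i = 0) := by
  classical
  haveI : Fintype (IrrCharacter G) := Fintype.ofFinite _
  choose v hv using fun (s : {s // s ∈ secs 2 M B}) (i : Fin 4) => Dt_int h s.2 (e i : IrrCharacter G)
  have S := sysOf hM hB h
  refine ⟨v, hv, fun s => four_signs (n := v s) (d := fun i => charDegree (((e i : IrrCharacter G) : G → ℂ))) (fun i => charDegree_pos (e i : IrrCharacter G).2) ?_ ?_, ?_⟩
  · have h1 := Dt_norm hM h s.2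
    rw [sum_B e _ (fun χ hχ => by rw [Dt_out hM s.2 hχ, zero_mul])] at h1
    rw [Finset.sum_congr rfl fun i _ => by rw [hv s i]] at h1
    exact_mod_cast h1
  · have h1 := S.reg 1 one_reg s
    rw [sum_B e _ (fun χ hχ => by rw [Dt_out hM s.2 hχ, zero_mul])] at h1
    rw [Finset.sum_congr rfl fun i _ => by rw [hv s i, ← charDegree_eq (e i : IrrCharacter G).2]] at h1
    exact_mod_cast h1
  · intro s s' hne
    have h1 := Dt_orth hM h s.2 s'.2 (fun hh => hne (Subtype.ext hh))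
    rw [sum_B e _ (fun χ hχ => by rw [Dt_out hM s.2 hχ, zero_mul])] at h1
    rw [Finset.sum_congr rfl fun i _ => by rw [hv s i, hv s' i]] at h1
    exact_mod_cast h1

theorem perf4 (hM : IsPModular 2 M) (hB : IsPBlock M B) (hB' : IsPBlock M B') (h : HL 2 M B 4) (h' : HL 2 M B' 4)
    (hc : Nat.card B = 4) (hc' : Nat.card B' = 4) {k : ℕ} (hk : (secs 2 M B).card = k) (hk' : (secs 2 M B').card = k)
    (h13 : k = 1 ∨ k = 3) : ∃ (I : IrrCharacter G' → IrrCharacter G) (ε : IrrCharacter G' → ℤ), IsPerfectIsometry 2 M B' B I ε := by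
  classical
  haveI : Finite B := Set.toFinite _
  obtain ⟨e⟩ : Nonempty (Fin 4 ≃ B) := ⟨(Finite.equivFinOfCardEq hc).symm⟩
  obtain ⟨e'⟩ : Nonempty (Fin 4 ≃ B') := ⟨(Finite.equivFinOfCardEq hc').symm⟩
  obtain ⟨v, hv1, hv2, hv3⟩ := signs4 hM hB h e
  obtain ⟨w, hw1, hw2, hw3⟩ := signs4 hM hB' h' e'
  have a : Fin k ≃ {s // s ∈ secs 2 M B} := (Fintype.equivFinOfCardEq (by rw [Fintype.card_coe, hk])).symm
  have a' : Fin k ≃ {s // s ∈ secs 2 M B'} := (Fintype.equivFinOfCardEq (by rw [Fintype.card_coe, hk'])).symm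
  have S := (sysOf hM hB h).reindex a
  have S' := (sysOf hM hB' h').reindex a'
  have key : ∃ π : Fin 4 → Fin 4, Function.Bijective π ∧ ∃ ε : Fin 4 → ℤ, ∀ j, (ε j = 1 ∨ ε j = -1) ∧
      ∀ i : Fin k, ε j * v (a i) (π j) = w (a' i) j := by
    rcases h13 with rfl | rfl
    · exact comb1 (v := fun i => v (a i)) (w := fun i => w (a' i)) (fun i => hv2 _) (fun i => hw2 _)
    · exact comb3 (v := fun i => v (a i)) (w := fun i => w (a' i)) (fun i => hv2 _)
        (fun i i' hii => hv3 _ _ (fun hh => hii (a.injective hh))) (fun i => hw2 _)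
        (fun i i' hii => hw3 _ _ (fun hh => hii (a'.injective hh)))
  obtain ⟨π, hπ, ε, hε⟩ := key
  refine ⟨fun η => if hη : η ∈ B' then (e (π (e'.symm ⟨η, hη⟩)) : IrrCharacter G) else (e 0 : IrrCharacter G),
    fun η => if hη : η ∈ B' then ε (e'.symm ⟨η, hη⟩) else 1, perfectG hM S S' ⟨?_, ?_, ?_⟩ ?_ ?_⟩
  · intro η hη
    beta_reduce
    rw [dif_pos hη]
    exact (e _).2
  · intro η hη η' hη' hh
    beta_reduce at hh
    rw [dif_pos hη, dif_pos hη'] at hh
    exact congrArg Subtype.val (e'.symm.injective (hπ.1 (e.injective (Subtype.ext hh))))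
  · intro χ hχ
    obtain ⟨j, hj⟩ := hπ.2 (e.symm ⟨χ, hχ⟩)
    refine ⟨(e' j : IrrCharacter G'), (e' j).2, ?_⟩
    beta_reduce
    rw [dif_pos (e' j).2]
    show (e (π (e'.symm (e' j))) : IrrCharacter G) = χ
    rw [Equiv.symm_apply_apply, hj, Equiv.apply_symm_apply]
  · intro η hη
    beta_reduce
    rw [dif_pos hη]
    exact (hε _).1
  · intro η hη i
    beta_reduce
    rw [dif_pos hη, dif_pos hη, hv1]
    have h1 := hw1 (a' i) (e'.symm ⟨η, hη⟩)
    rw [Equiv.apply_symm_apply] at h1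
    rw [h1, ← (hε _).2 i]
    push_cast
    rfl

end perf

end Cfsg.Agent.H25.Czo
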