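import Mathlib
import Cfsg.Agent.H25_Czo

/-!
H25_Czp: blocks with Klein four defect group and their local blocks.
-/

set_option autoImplicit false
set_option linter.unusedSectionVars false

open scoped ComplexConjugate

namespace Cfsg.Agent.H25.Czp

open Cfsg Cfsg.Agent.H3 Cfsg.Agent.H3.CharIrr Cfsg.Agent.H3.CharComplete Cfsg.Agent.H3.CharBasic
  Cfsg.Agent.H10.BlockLoc Cfsg.Agent.H10.BlockAlg Cfsg.Agent.H10.BlockIdem Cfsg.Agent.H10.Char
  Cfsg.Agent.H10.BlockSMT Cfsg.Agent.H10.BlockSMT2 Cfsg.Agent.H10.BlockTrace Cfsg.Agent.H10.BlockDefect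
  Cfsg.Agent.H10.BlockMain Cfsg.Agent.H10.BlockHZ Cfsg.Agent.H10.BlockOrth
  Cfsg.Agent.H10.PPart Cfsg.Agent.H25.IndCong Cfsg.Agent.H25.Red Cfsg.Agent.H25.KG Cfsg.Agent.H25.Up
  Cfsg.Agent.H25.BPTr Cfsg.Agent.H25.BPMain Cfsg.Agent.H25.BPDef Cfsg.Agent.H25.Fus Cfsg.Agent.H25.Nilp
  Cfsg.Agent.H25.NilpAb Cfsg.Agent.H25.Rel Cfsg.Agent.H25.FMT Cfsg.Agent.H25.Sub Cfsg.Agent.H25.Sub2 Cfsg.Agent.H25.Cyk
  Cfsg.Agent.H25.Cys Cfsg.Agent.H25.Cyn Cfsg.Agent.H25.Cyi Cfsg.Agent.H25.Cyx Cfsg.Agent.H25.Cyy Cfsg.Agent.H25.Cyz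
  Cfsg.Agent.H25.Cza Cfsg.Agent.H25.Czb Cfsg.Agent.H25.Czd Cfsg.Agent.H25.Czg Cfsg.Agent.H25.Czh
  Cfsg.Agent.H25.AbSec Cfsg.Agent.H25.AbSec2 Cfsg.Agent.H25.Four Cfsg.Agent.H25.Cze Cfsg.Agent.H25.Czm Cfsg.Agent.H10.BlockKer
  Cfsg.Agent.H25.Czn Cfsg.Agent.H25.Czo Cfsg.Agent.H25.Czj

section grp

variable {G : Type*} [Group G] [Fintype G] {P : Subgroup G}

theorem kf_move (hV : KF P) {t : G} (ht : ∀ x ∈ P, t * x * t⁻¹ ∈ P) {y : G} (hy : y ∈ P) (hy1 : y ≠ 1)
    (hty : t * y * t⁻¹ = y) {x : G} (hx : x ∈ P) : t * x * t⁻¹ = x ∨ t * x * t⁻¹ = x * y := by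
  classical
  by_cases hx1 : x = 1
  · left; rw [hx1]; group
  by_cases hxy : x = y
  · left; rw [hxy]; exact hty
  have hinj : ∀ {a b : G}, t * a * t⁻¹ = t * b * t⁻¹ → a = b := fun {a b} h => by
    have h1 := mul_right_cancel h
    exact mul_left_cancel h1
  have h1 : ({1, y, x, x * y} : Finset G).card = 4 := by
    have hyy : y * y = 1 := hV.sq y hy
    have n1 : x * y ≠ 1 := fun h => hxy (by rw [← mul_right_inj x, h, hV.sq x hx] )
    have n2 : x * y ≠ y := fun h => hx1 (by simpa using h)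
    have n3 : x * y ≠ x := fun h => hy1 (by simpa using h)
    rw [Finset.card_insert_of_notMem, Finset.card_insert_of_notMem, Finset.card_insert_of_notMem, Finset.card_singleton]
    · rw [Finset.mem_singleton]; exact fun h => n3 h.symm
    · rw [Finset.mem_insert, Finset.mem_singleton]
      rintro (h | h)
      · exact hxy h.symm
      · exact n2 h.symm
    · rw [Finset.mem_insert, Finset.mem_insert, Finset.mem_singleton]
      rintro (h | h | h)
      · exact hy1 h.symm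
      · exact hx1 h.symm
      · exact n1 h.symm
  have h2 : ∀ w ∈ P, w ∈ ({1, y, x, x * y} : Finset G) := by
    haveI : Fintype P := Fintype.ofFinite _
    have h3 : (({1, y, x, x * y} : Finset G)) ⊆ (Finset.univ.filter fun w => w ∈ P) := by
      intro w hw
      rw [Finset.mem_filter]
      refine ⟨Finset.mem_univ _, ?_⟩
      simp only [Finset.mem_insert, Finset.mem_singleton] at hw
      rcases hw with rfl | rfl | rfl | rfl
      · exact P.one_mem
      · exact hy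
      · exact hx
      · exact P.mul_mem hx hy
    have h4 : (Finset.univ.filter fun w => w ∈ P).card = 4 := by
      rw [← hV.card, Nat.card_eq_fintype_card, Fintype.card_subtype]
    have h5 := Finset.eq_of_subset_of_card_le h3 (by rw [h1, h4])
    intro w hw
    rw [h5, Finset.mem_filter]
    exact ⟨Finset.mem_univ _, hw⟩
  have h6 := h2 _ (ht x hx)
  simp only [Finset.mem_insert, Finset.mem_singleton] at h6
  rcases h6 with h | h | h | h
  · exact absurd (hinj (b := 1) (by rw [h]; group)) hx1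
  · exact absurd (hinj (b := y) (by rw [h, hty])) hxy
  · exact Or.inl h
  · exact Or.inr h

theorem kf_cs (hV : KF P) (g : G) : KF (KG.cs g P) where
  card := by rw [KG.card_cs, hV.card]
  sq := fun x hx => by
    rw [KG.mem_cs] at hx
    have h1 := hV.sq _ hx
    have h2 : g⁻¹ * (x * x) * g = 1 := by rw [← h1]; group
    have h3 : x * x = g * 1 * g⁻¹ := by rw [← h2]; group
    rw [h3]; group

end grp

section loc

variable {M : Ideal AlgInt} [hMax : M.IsMaximal] [hch : CharP (KM M) 2] {G : Type*} [Group G] [Fintype G]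
  {B : MonoidAlgebra (KM M) G} {P Q : Subgroup G} {E f : MonoidAlgebra (KM M) G}

theorem kf_free (hM : IsPModular 2 M) (hP : BP 2 B P E) (htop : KG.Top 2 P E) (hV : KF P) {y : G} (hy : y ∈ P) (hy1 : y ≠ 1) :
    Nf P E ⊓ Ce (Subgroup.zpowers y) ≤ Ce P := by
  rintro t ⟨ht, htQ⟩
  have hty : t * y * t⁻¹ = y := by
    have h1 := Subgroup.mem_centralizer_iff.1 htQ y (Subgroup.mem_zpowers y)
    rw [← h1]; group
  have htP : ∀ x ∈ P, t * x * t⁻¹ ∈ P := fun x hx => (Subgroup.mem_normalizer_iff.1 ht.1 x).1 hx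
  have h2 : t ^ 2 ∈ Ce P := by
    rw [Subgroup.mem_centralizer_iff]
    intro x hx
    have e1 : t * (t * x * t⁻¹) * t⁻¹ = x := by
      rcases kf_move hV htP hy hy1 hty hx with h | h
      · rw [h, h]
      · rw [h]
        calc t * (x * y) * t⁻¹ = (t * x * t⁻¹) * (t * y * t⁻¹) := by group
          _ = x * y * y := by rw [h, hty]
          _ = x := by rw [mul_assoc, hV.sq y hy, mul_one]
    calc x * t ^ 2 = t * (t * x * t⁻¹) * t⁻¹ * t ^ 2 := by rw [e1]
      _ = t ^ 2 * x := by rw [pow_two]; group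
  have h3 : t ^ ((Ce P).relIndex (Nf P E)) ∈ Ce P := pow_mem_Ce hP.be ht
  have h4 : Odd ((Ce P).relIndex (Nf P E)) := by
    rw [← Nat.not_even_iff_odd, even_iff_two_dvd]
    exact idx_ab hM hP htop hV.ab
  obtain ⟨k, hk⟩ := h4
  rw [hk] at h3
  have h5 : t = ((t ^ 2) ^ k)⁻¹ * t ^ (2 * k + 1) := by
    rw [← pow_mul, pow_succ t (2 * k), ← mul_assoc, inv_mul_cancel, one_mul]
  rw [h5]
  exact (Ce P).mul_mem ((Ce P).inv_mem ((Ce P).pow_mem h2 k)) h3

/-- the local blocks -/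
theorem loc_kf (hM : IsPModular 2 M) (hP : BP 2 B P E) (htop : KG.Top 2 P E) (hV : KF P) {z : G} (hz : z ∈ P) (hz1 : z ≠ 1)
    {β : Set (IrrCharacter (Subgroup.centralizer ({z} : Set G)))} (hβ : IsPBlock M β)
    (hle : LE 2 (Subgroup.zpowers z) (ep M (Subgroup.centralizer ({z} : Set G)) β) P E) :
    (∀ φ ∈ β, ∀ φ' ∈ β, ∀ y : Subgroup.centralizer ({z} : Set G), ¬ 2 ∣ orderOf y →
        (φ : Subgroup.centralizer ({z} : Set G) → ℂ) y = (φ' : Subgroup.centralizer ({z} : Set G) → ℂ) y) ∧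
      Nat.card β = 4 := by
  classical
  have key : ∀ L : Subgroup G, L = Ce (Subgroup.zpowers z) → ∀ b : Set (IrrCharacter L),
      IsPBlock M b → LE 2 (Subgroup.zpowers z) (ep M L b) P E →
      (∀ φ ∈ b, ∀ φ' ∈ b, ∀ y : L, ¬ 2 ∣ orderOf y → (φ : L → ℂ) y = (φ' : L → ℂ) y) ∧
      Nat.card b = 4 := by
    rintro _ rfl b hb hle
    haveI : Fintype (Ce (Subgroup.zpowers z)) := Fintype.ofFinite _
    have hnil : IsNilpotentBlock 2 M b := by
      rw [nilpH_iff', and_iff_right hb, nilp_ab_rel hM hP htop hV.ab hle]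
      exact kf_free hM hP htop hV hz hz1
    obtain ⟨h1, h2⟩ := Cyj.agree hM hnil ((defectH_iff' hM hb (le_Ce_ab hV.ab hle.le)).2
      (dgh_ab hM hP htop hV.ab hle)) (by
        rintro ⟨⟨x, hx⟩, hx'⟩ ⟨⟨y, hy⟩, hy'⟩
        exact Subtype.ext (Subtype.ext (hV.ab x hx' y hy')))
    refine ⟨h1, ?_⟩
    rw [h2, ← hV.card]
    exact Nat.card_congr (Subgroup.subgroupOfEquivOfLe (le_Ce_ab hV.ab hle.le)).toEquiv
  exact key _ (AbSec.Ce_zp z).symm β hβ hle

theorem hl_kf (hM : IsPModular 2 M) {B : Set (IrrCharacter G)} (hB : IsPBlock M B)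
    (hP : BP 2 (epG M B) P E) (htop : KG.Top 2 P E) (hV : KF P) : HL 2 M B 4 := by
  have key : ∀ s ∈ secs 2 M B, ((∀ φ ∈ s.2, ∀ φ' ∈ s.2, ∀ y : Subgroup.centralizer ({s.1} : Set G), ¬ 2 ∣ orderOf y →
        (φ : Subgroup.centralizer ({s.1} : Set G) → ℂ) y = (φ' : Subgroup.centralizer ({s.1} : Set G) → ℂ) y) ∧
      Nat.card s.2 = 4) ∧ orderOf s.1 = 2 := by
    intro s hs
    obtain ⟨y, hy, hy1, g, hg, hle⟩ := sec_surj hM hB hP htop hs
    have hyo := hV.order hy hy1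
    have h1 : s.1 ∈ KG.cs g P := by
      rw [KG.mem_cs, ← hg]
      have : g⁻¹ * (g * y * g⁻¹) * g = y := by group
      rw [this]; exact hy
    have h2 : orderOf s.1 = 2 := by
      rw [← hg, ← MulAut.conj_apply, MulEquiv.orderOf_eq, hyo]
    have h3 := hle.cnj g
    rw [cnj_cnj_inv, AbSec.cs_zp, hg] at h3
    exact ⟨loc_kf hM (hP.cnj g) (htop.cnj g) (kf_cs hV g) h1 (mem_secs.1 hs).2.1 (mem_secs.1 hs).2.2.1 h3, h2⟩
  exact ⟨fun s hs => (key s hs).1.1, fun s hs => (key s hs).1.2, fun s hs => (key s hs).2⟩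

end loc

section fin

variable {M : Ideal AlgInt} [hMax : M.IsMaximal] [hch : CharP (KM M) 2] {G : Type*} [Group G] [Fintype G]
  {P : Subgroup G}

theorem main_kf (hM : IsPModular 2 M) {B : Set (IrrCharacter G)} (hB : IsPBlock M B) (hPD : IsDefectGroup 2 M B P)
    (hV : IsKleinFour P) {H : Subgroup G} [Fintype H] (hH : H = Subgroup.normalizer (P : Set G)) {c : Set (IrrCharacter H)}
    (hcD : IsDefectGroup 2 M c (P.subgroupOf H)) (hc : IsInducedBlock M H c B) :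
    ∃ (I : IrrCharacter H → IrrCharacter G) (ε : IrrCharacter H → ℤ), IsPerfectIsometry 2 M c B I ε := by
  classical
  have hK := kf_of_klein hV
  have hPH : P ≤ H := by rw [hH]; exact Subgroup.le_normalizer
  have hNH : Nm P ≤ H := by rw [hH]
  have hCH : Ce P ≤ H := (Ce_le_Nm P).trans hNH
  obtain ⟨E', hbp', htop'⟩ := H25.STs.exists_max_of hM hc.1 hcD
  have hbp := up_pair hM hPH hCH hc hbp'
  have htop : KG.Top 2 P (up (KM M) H E') := top_of_dgh ((defectG_iff hM hB).1 hPD) hbp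
  have hK' : KF (P.subgroupOf H) := by
    refine ⟨?_, ?_⟩
    · rw [← hK.card]
      exact Nat.card_congr (Subgroup.subgroupOfEquivOfLe hPH).toEquiv
    · rintro x hx
      exact Subtype.ext (hK.sq x hx)
  have hrel : (Ce P).relIndex (Nf P (up (KM M) H E')) = (Ce (P.subgroupOf H)).relIndex (Nf (P.subgroupOf H) E') := by
    rw [← Subgroup.relIndex_map_map_of_injective _ _ (Subgroup.subtype_injective H), Nf_map,
      Rel.Ce_map (by rw [of_map hPH]; exact hCH), of_map hPH, inf_eq_left.2]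
    exact fun t ht => hNH (mem_Nf.1 ht).1
  have h1 := main_k hM hB hbp htop hK
  have h2 := main_k hM hc.1 hbp' htop' hK'
  rcases idx_cases hM hbp htop hK with h | h
  · exact perf4 hM hB hc.1 (hl_kf hM hB hbp htop hK) (hl_kf hM hc.1 hbp' htop' hK') h1.1 h2.1 (k := 3)
      (secs_three hM hB hbp htop hK h) (secs_three hM hc.1 hbp' htop' hK' (hrel ▸ h)) (Or.inr rfl)
  · exact perf4 hM hB hc.1 (hl_kf hM hB hbp htop hK) (hl_kf hM hc.1 hbp' htop' hK') h1.1 h2.1 (k := 1)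
      (secs_one hM hB hbp htop hK h) (secs_one hM hc.1 hbp' htop' hK' (hrel ▸ h)) (Or.inl rfl)

end fin

end Cfsg.Agent.H25.Czp
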