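import Mathlib
import Cfsg.Agent.H25_Czp

/-!
H25_Czq: the values of the characters of a block with cyclic defect group on singular elements.
-/

set_option autoImplicit false
set_option linter.unusedSectionVars false

open scoped ComplexConjugate

namespace Cfsg.Agent.H25.Czq

open Cfsg Cfsg.Agent.H3 Cfsg.Agent.H3.CharIrr Cfsg.Agent.H3.CharComplete Cfsg.Agent.H3.CharBasic
  Cfsg.Agent.H10.BlockLoc Cfsg.Agent.H10.BlockAlg Cfsg.Agent.H10.BlockIdem Cfsg.Agent.H10.Char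
  Cfsg.Agent.H10.BlockSMT Cfsg.Agent.H10.BlockSMT2 Cfsg.Agent.H10.BlockTrace Cfsg.Agent.H10.BlockDefect
  Cfsg.Agent.H10.BlockMain Cfsg.Agent.H10.BlockHZ Cfsg.Agent.H10.BlockOrth
  Cfsg.Agent.H10.PPart Cfsg.Agent.H25.IndCong Cfsg.Agent.H25.Red Cfsg.Agent.H25.KG Cfsg.Agent.H25.Up
  Cfsg.Agent.H25.BPTr Cfsg.Agent.H25.BPMain Cfsg.Agent.H25.BPDef Cfsg.Agent.H25.Fus Cfsg.Agent.H25.Nilp
  Cfsg.Agent.H25.NilpAb Cfsg.Agent.H25.Rel Cfsg.Agent.H25.FMT Cfsg.Agent.H25.Sub Cfsg.Agent.H25.Sub2 Cfsg.Agent.H25.Cyk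
  Cfsg.Agent.H25.Cys Cfsg.Agent.H25.Cyn Cfsg.Agent.H25.Cyi Cfsg.Agent.H25.Cyx Cfsg.Agent.H25.Cyy Cfsg.Agent.H25.Cyz
  Cfsg.Agent.H25.Cza Cfsg.Agent.H25.Czb Cfsg.Agent.H25.Czd Cfsg.Agent.H25.Czg Cfsg.Agent.H25.Czh
  Cfsg.Agent.H25.AbSec Cfsg.Agent.H25.AbSec2 Cfsg.Agent.H25.Cze Cfsg.Agent.H10.BlockKer

/-- the data of a block with cyclic defect group -/
structure CD {G : Type*} [Group G] (p : ℕ) (B : Set (IrrCharacter G)) (X Y : Finset (IrrCharacter G))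
    (δ : IrrCharacter G → ℤ) (ε : ℤ) : Prop where
  mem : ∀ χ, χ ∈ B ↔ χ ∈ X ∨ χ ∈ Y
  dis : Disjoint X Y
  hδ : ∀ χ ∈ X, δ χ = 1 ∨ δ χ = -1
  hε : ε = 1 ∨ ε = -1
  rel : ∀ ψ ∈ Y, ∀ g, ¬ p ∣ orderOf g → (ε : ℂ) * (ψ : G → ℂ) g = ∑ χ ∈ X, (δ χ : ℂ) * (χ : G → ℂ) g
  sing : ∀ χ ∈ X, ∀ g, p ∣ orderOf g → (δ χ : ℂ) * (χ : G → ℂ) g + (ε : ℂ) * ∑ ψ ∈ Y, (ψ : G → ℂ) g = 0

section cyc

variable {M : Ideal AlgInt} [hMax : M.IsMaximal] {p : ℕ} [hp : Fact p.Prime] [hch : CharP (KM M) p]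
  {G : Type*} [Group G] [Fintype G] {B : Set (IrrCharacter G)}

theorem cyc_data (hM : IsPModular p M) (hB : IsPBlock M B) {D : Subgroup G} (hD : IsDefectGroup p M B D)
    (hc : IsCyclic D) (hD1 : D ≠ ⊥) : ∃ (X Y : Finset (IrrCharacter G)) (δ : IrrCharacter G → ℤ) (ε : ℤ),
      CD p B X Y δ ε ∧ 0 < X.card ∧ 0 < Y.card ∧ X.card * Y.card + 1 = Nat.card D := by
  classical
  haveI : Fintype (IrrCharacter G) := Fintype.ofFinite _
  obtain ⟨E, hbp, htop⟩ := H25.STs.exists_max_of hM hB hD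
  have hDp : IsPGroup p D := hbp.pg
  obtain ⟨u, huP, huo⟩ : ∃ u ∈ D, orderOf u = p := by
    haveI : Nontrivial D := (Subgroup.nontrivial_iff_ne_bot D).2 hD1
    obtain ⟨n, hn0, hn⟩ := hDp.nontrivial_iff_card.1 inferInstance
    obtain ⟨x, hx⟩ := exists_prime_orderOf_dvd_card' (G := D) p (by rw [hn]; exact dvd_pow_self p hn0.ne')
    exact ⟨x, x.2, by rwa [Subgroup.orderOf_coe]⟩
  haveI : NeZero (Nat.card D) := ⟨Nat.card_pos.ne'⟩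
  obtain ⟨b, θ, h, hpj⟩ := exists_cfg4 hM hB hbp htop hc huP huo (zmodCyclicMulEquiv hc)
  obtain ⟨X, Y, δ, ε, L, hs⟩ := main h
  obtain ⟨h1, h2, h3, h4, h5, h6, h7, h8, h9, h10, h11⟩ := hs
  have hεε : (ε : ℂ) * ε = 1 := by rcases h6 with hh | hh <;> rw [hh] <;> norm_num
  have hcard := Cyh.card_orb (HT (zmodCyclicMulEquiv hc) (Nf D E)) (free h)
  have hH : 0 < Nat.card (HT (zmodCyclicMulEquiv hc) (Nf D E)) := Nat.card_pos
  have hq : 1 < Nat.card D := q_gt h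
  have hsum : ∀ i : ZMod (Nat.card D), i ≠ 0 → ∑ ψ ∈ Y, Cyh.dd (mu θ) ψ i = -ε := by
    intro i hi
    haveI : Fintype (Cyh.Orb (HT (zmodCyclicMulEquiv hc) (Nf D E))) := Fintype.ofFinite _
    have e1 : ∑ ψ ∈ Y, Cyh.dd (mu θ) ψ i = ∑ o, Cyh.dd (mu θ) (L o) i := by
      have e2 : Y = Finset.univ.image L := by
        ext ψ
        rw [h8, Finset.mem_image]
        exact ⟨fun ⟨o, ho⟩ => ⟨o, Finset.mem_univ _, ho⟩, fun ⟨o, _, ho⟩ => ⟨o, ho⟩⟩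
      rw [e2, Finset.sum_image (fun a _ b _ hab => h7 hab)]
    rw [e1, Finset.sum_congr rfl fun o _ => Cyh.dd_eq_vv (mu θ) (L o) hi, Finset.sum_neg_distrib, Finset.sum_comm]
    have e3 : ∀ a : ZMod (Nat.card D), ∑ o, (Cyh.vv (mu θ) (L o) a : ℂ) * Cyh.ee (a * i) =
        -(ε : ℂ) * Cyh.ee (i * a) - if a = 0 then -(ε : ℂ) else 0 := by
      intro a
      by_cases ha : a = 0
      · rw [if_pos ha]
        subst ha
        rw [Finset.sum_eq_zero (fun o _ => by rw [Cyh.vv_zero, Int.cast_zero, zero_mul]), mul_zero, Cyh.ee_zero]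
        ring
      · rw [if_neg ha, Finset.sum_eq_single (Cyh.om _ ⟨a, ha⟩)]
        · rw [h9 _ ⟨a, ha⟩ rfl, mul_comm i a]; push_cast; ring
        · intro o _ ho
          rw [h10 o ⟨a, ha⟩ (fun hh => ho hh.symm), Int.cast_zero, zero_mul]
        · intro hh; exact absurd (Finset.mem_univ _) hh
    rw [Finset.sum_congr rfl fun a _ => e3 a, Finset.sum_sub_distrib, ← Finset.mul_sum, Cyh.sum_ee, if_neg hi,
      Finset.sum_ite_eq' Finset.univ (0 : ZMod (Nat.card D)), if_pos (Finset.mem_univ _)]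
    ring
  refine ⟨X, Y, δ, ε, ⟨h1, h2, fun χ hχ => (h5 χ hχ).1, h6, fun ψ hψ g hg => ?_, fun χ hχ g hg => ?_⟩, ?_, ?_, ?_⟩
  · obtain ⟨o, rfl⟩ := (h8 ψ).1 hψ
    exact h11 o g hg
  · obtain ⟨c, -, -, hcc⟩ := expand h hpj hg
    have hδ : (δ χ : ℂ) * δ χ = 1 := by rcases (h5 χ hχ).1 with hh | hh <;> rw [hh] <;> norm_num
    rw [hcc χ ((h1 χ).2 (Or.inl hχ)), Finset.sum_congr rfl fun ψ hψ => hcc ψ ((h1 ψ).2 (Or.inr hψ)), Finset.sum_comm,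
      Finset.mul_sum, Finset.mul_sum, ← Finset.sum_add_distrib]
    refine Finset.sum_eq_zero fun i _ => ?_
    by_cases hi : i = 0
    · simp only [if_pos hi, Finset.sum_const_zero]; ring
    · simp only [if_neg hi]
      rw [← Finset.mul_sum, hsum i hi, Cyh.dd_const (mu θ) χ (h5 χ hχ).2 hi]
      linear_combination c i * hδ - c i * hεε
  · rw [h3]; exact hH
  · rw [h4]
    by_contra hh
    rw [Nat.eq_zero_of_not_pos hh, mul_zero] at hcard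
    omega
  · rw [h3, h4, hcard]; omega

end cyc

end Cfsg.Agent.H25.Czq
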