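import Mathlib
import Cfsg.Agent.H25_Avg

/-!
H25_Czr: counting with averages over the Galois group.
-/

set_option autoImplicit false
set_option linter.unusedSectionVars false

open scoped ComplexConjugate

namespace Cfsg.Agent.H25.Czr

open Cfsg Cfsg.Agent.H3.CharGal Cfsg.Agent.H3.CharBasic Cfsg.Agent.H25.Avg

section num

variable {n : ℕ} [NeZero n]

theorem conj_mem (x : Cyc n) : conj (x : ℂ) ∈ Cyc n := by
  have hx : (x : ℂ) ∈ IntermediateField.adjoin ℚ {zet n} := x.2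
  refine IntermediateField.adjoin_induction ℚ
    (p := fun z _ => conj z ∈ Cyc n) ?_ ?_ ?_ ?_ ?_ hx
  · intro z hz
    rw [Set.mem_singleton_iff.1 hz]
    refine root_mem (n := n) ?_
    rw [← map_pow, (zet_prim n).pow_eq_one, map_one]
  · intro q
    have : conj ((algebraMap ℚ ℂ) q) = (algebraMap ℚ ℂ) q := by simp
    rw [this]
    exact algebraMap_mem _ q
  · intro a b _ _ ha hb
    rw [map_add]; exact add_mem ha hb
  · intro a _ ha
    rw [map_inv₀]; exact inv_mem ha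
  · intro a b _ _ ha hb
    rw [map_mul]; exact mul_mem ha hb

theorem gal_norm {ι : Type*} [Fintype ι] (w : ι → Cyc n) {R : ℕ}
    (h : ∑ χ, (w χ : ℂ) * conj (w χ : ℂ) = R) (σ : Gm n) : ∑ χ, ‖(σ (w χ) : ℂ)‖ ^ 2 = (R : ℝ) := by
  have h1 : ∑ χ, w χ * (⟨conj (w χ : ℂ), conj_mem _⟩ : Cyc n) = (R : Cyc n) := by
    apply Subtype.ext
    push_cast
    exact h
  have h2 := congrArg (fun x : Cyc n => ((σ x : Cyc n) : ℂ)) h1
  simp only [map_sum, map_mul, map_natCast] at h2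
  push_cast at h2
  have h3 : ∀ χ, (σ (w χ) : ℂ) * ((σ (⟨conj (w χ : ℂ), conj_mem _⟩ : Cyc n) : Cyc n) : ℂ) =
      ((‖(σ (w χ) : ℂ)‖ ^ 2 : ℝ) : ℂ) := by
    intro χ
    rw [conj_gal σ (w χ) ⟨conj (w χ : ℂ), conj_mem _⟩ rfl, Complex.mul_conj, Complex.normSq_eq_norm_sq]
  rw [Finset.sum_congr rfl fun χ _ => h3 χ] at h2
  exact_mod_cast h2

theorem pairs {I α : Type*} [Fintype I] [DecidableEq I] [DecidableEq α] (f : I → α) {i₀ j₀ : I} (h : f i₀ ≠ f j₀) :
    2 * (Fintype.card I - 1) ≤ ∑ i, ∑ j, (if f i = f j then 0 else 1) := by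
  have hij : i₀ ≠ j₀ := fun hh => h (by rw [hh])
  have hc : ∀ i, 1 ≤ ∑ j, (if f i = f j then 0 else 1) := by
    intro i
    by_cases hi : f i = f i₀
    · calc 1 = (if f i = f j₀ then 0 else 1) := by rw [if_neg (by rw [hi]; exact h)]
        _ ≤ _ := Finset.single_le_sum (f := fun j => if f i = f j then 0 else 1) (fun _ _ => Nat.zero_le _) (Finset.mem_univ j₀)
    · calc 1 = (if f i = f i₀ then 0 else 1) := by rw [if_neg hi]
        _ ≤ _ := Finset.single_le_sum (f := fun j => if f i = f j then 0 else 1) (fun _ _ => Nat.zero_le _) (Finset.mem_univ i₀)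
  have h2 : Fintype.card I ≤ (∑ j, (if f i₀ = f j then 0 else 1)) + ∑ j, (if f j₀ = f j then 0 else 1) := by
    rw [← Finset.sum_add_distrib, Fintype.card_eq_sum_ones]
    refine Finset.sum_le_sum fun k _ => ?_
    by_cases hk : f i₀ = f k
    · rw [if_neg (fun hh : f j₀ = f k => h (hk.trans hh.symm))]; omega
    · rw [if_neg hk]; omega
  have h3 : ∑ i, ∑ j, (if f i = f j then 0 else 1) = ((∑ j, (if f i₀ = f j then 0 else 1)) + ∑ j, (if f j₀ = f j then 0 else 1)) +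
      ∑ i ∈ (Finset.univ.erase i₀).erase j₀, ∑ j, (if f i = f j then 0 else 1) := by
    rw [← Finset.add_sum_erase _ _ (Finset.mem_univ i₀), ← Finset.add_sum_erase (Finset.univ.erase i₀) _
      (Finset.mem_erase.2 ⟨hij.symm, Finset.mem_univ _⟩), add_assoc]
  have h4 : Fintype.card I - 2 ≤ ∑ i ∈ (Finset.univ.erase i₀).erase j₀, ∑ j, (if f i = f j then 0 else 1) := by
    have h5 : ((Finset.univ.erase i₀).erase j₀).card = Fintype.card I - 2 := by
      rw [Finset.card_erase_of_mem (Finset.mem_erase.2 ⟨hij.symm, Finset.mem_univ _⟩), Finset.card_erase_of_mem (Finset.mem_univ _),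
        Finset.card_univ]
      omega
    rw [← h5, Finset.card_eq_sum_ones]
    exact Finset.sum_le_sum fun k _ => hc k
  have h6 : 2 ≤ Fintype.card I := by
    have : ({i₀, j₀} : Finset I).card = 2 := Finset.card_pair hij
    rw [← this]; exact Finset.card_le_univ _
  rw [h3]
  omega

theorem count_main {ι I : Type*} [Fintype ι] [Fintype I] [DecidableEq I] (l : ι → I → Cyc n)
    (hint : ∀ χ i, IsIntegral ℤ (l χ i : ℂ)) (r : I → I → ℕ)
    (hr : ∀ i j, ∑ χ, ((l χ i : ℂ) - l χ j) * conj ((l χ i : ℂ) - l χ j) = r i j) (S : Finset ι)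
    (hS : ∀ χ ∈ S, ∃ i j, l χ i ≠ l χ j) : S.card * (2 * (Fintype.card I - 1)) ≤ ∑ i, ∑ j, r i j := by
  classical
  have hg : (0 : ℝ) < Fintype.card (Gm n) := by exact_mod_cast Fintype.card_pos
  have h1 : ∀ i j, ∑ σ : Gm n, ∑ χ, ‖(σ (l χ i - l χ j) : ℂ)‖ ^ 2 = Fintype.card (Gm n) * (r i j : ℝ) := by
    intro i j
    rw [Finset.sum_congr rfl fun σ _ => gal_norm (fun χ => l χ i - l χ j) (R := r i j) (hr i j) σ, Finset.sum_const, Finset.card_univ, nsmul_eq_mul]
  have h2 : ∀ i j, (∑ χ ∈ S, (if l χ i = l χ j then (0 : ℝ) else Fintype.card (Gm n))) ≤ Fintype.card (Gm n) * (r i j : ℝ) := by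
    intro i j
    rw [← h1 i j, Finset.sum_comm]
    calc (∑ χ ∈ S, (if l χ i = l χ j then (0 : ℝ) else Fintype.card (Gm n))) ≤
        ∑ χ ∈ S, ∑ σ : Gm n, ‖(σ (l χ i - l χ j) : ℂ)‖ ^ 2 := by
          refine Finset.sum_le_sum fun χ _ => ?_
          split_ifs with hh
          · exact Finset.sum_nonneg fun _ _ => sq_nonneg _
          · refine norm_avg (sub_ne_zero.2 hh) ?_
            show IsIntegral ℤ ((l χ i : ℂ) - (l χ j : ℂ))
            exact (hint χ i).sub (hint χ j)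
      _ ≤ _ := Finset.sum_le_sum_of_subset_of_nonneg (Finset.subset_univ S) fun χ _ _ => Finset.sum_nonneg fun _ _ => sq_nonneg _
  have h3 : (∑ i, ∑ j, ∑ χ ∈ S, (if l χ i = l χ j then (0 : ℝ) else Fintype.card (Gm n))) ≤
      Fintype.card (Gm n) * ∑ i, ∑ j, (r i j : ℝ) := by
    rw [Finset.mul_sum]
    refine Finset.sum_le_sum fun i _ => ?_
    rw [Finset.mul_sum]
    exact Finset.sum_le_sum fun j _ => h2 i j
  have h4 : (∑ i, ∑ j, ∑ χ ∈ S, (if l χ i = l χ j then (0 : ℝ) else Fintype.card (Gm n))) =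
      Fintype.card (Gm n) * ∑ χ ∈ S, ((∑ i, ∑ j, (if l χ i = l χ j then 0 else 1) : ℕ) : ℝ) := by
    have e1 : ∀ i, ∑ j, ∑ χ ∈ S, (if l χ i = l χ j then (0 : ℝ) else Fintype.card (Gm n)) =
        ∑ χ ∈ S, ∑ j, (if l χ i = l χ j then (0 : ℝ) else Fintype.card (Gm n)) := fun i => Finset.sum_comm
    rw [Finset.sum_congr rfl fun i _ => e1 i, Finset.sum_comm, Finset.mul_sum]
    refine Finset.sum_congr rfl fun χ _ => ?_
    push_cast
    rw [Finset.mul_sum]
    refine Finset.sum_congr rfl fun i _ => ?_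
    rw [Finset.mul_sum]
    refine Finset.sum_congr rfl fun j _ => ?_
    split_ifs
    · rw [mul_zero]
    · rw [mul_one]
  rw [h4] at h3
  have h5 := le_of_mul_le_mul_left h3 hg
  have h6 : (∑ χ ∈ S, (∑ i, ∑ j, (if l χ i = l χ j then 0 else 1))) ≤ ∑ i, ∑ j, r i j := by exact_mod_cast h5
  refine le_trans ?_ h6
  rw [← smul_eq_mul, ← Finset.sum_const]
  refine Finset.sum_le_sum fun χ hχ => ?_
  obtain ⟨i, j, hij⟩ := hS χ hχ
  exact pairs (l χ) hij

end num

end Cfsg.Agent.H25.Czr
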