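import Mathlib
import Cfsg.Agent.H25_Czq
import Cfsg.Agent.H25_Czr
import Cfsg.Agent.H25_Dom2

/-!
H25_Czs: the columns of a subsection in terms of the dominated block.
-/

set_option autoImplicit false
set_option linter.unusedSectionVars false

open scoped ComplexConjugate

namespace Cfsg.Agent.H25.Czs

open Cfsg Cfsg.Agent.H3 Cfsg.Agent.H3.CharIrr Cfsg.Agent.H3.CharComplete Cfsg.Agent.H3.CharBasic
  Cfsg.Agent.H10.BlockLoc Cfsg.Agent.H10.BlockAlg Cfsg.Agent.H10.BlockIdem Cfsg.Agent.H10.Char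
  Cfsg.Agent.H10.BlockSMT Cfsg.Agent.H10.BlockSMT2 Cfsg.Agent.H10.BlockTrace Cfsg.Agent.H10.BlockDefect
  Cfsg.Agent.H10.BlockMain Cfsg.Agent.H10.BlockHZ Cfsg.Agent.H10.BlockOrth
  Cfsg.Agent.H10.PPart Cfsg.Agent.H25.IndCong Cfsg.Agent.H25.Red
  Cfsg.Agent.H25.Sub Cfsg.Agent.H25.Sub2 Cfsg.Agent.H10.BlockKer
  Cfsg.Agent.H10.RegPart Cfsg.Agent.H10.BlockQuot Cfsg.Agent.H25.Dom Cfsg.Agent.H3.CharGal

section pure

variable {M : Ideal AlgInt} [hMax : M.IsMaximal] {p : ℕ} [hp : Fact p.Prime]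
  {C : Type*} [Group C] [Fintype C] (N : Subgroup C) [hN : N.Normal] [Fintype (C ⧸ N)] {b : Set (IrrCharacter C)}

theorem reg_sum (hNp : IsPGroup p N) (hC : ∃ k : ℕ, (Subgroup.centralizer (N : Set C)).index = p ^ k)
    (F : C ⧸ N → ℂ) (hF : ∀ x, p ∣ orderOf x → F x = 0) [DecidablePred fun y : C => p ∣ orderOf y] :
    ∑ y : C, (if p ∣ orderOf y then 0 else F (QuotientGroup.mk y)) = ∑ x : C ⧸ N, F x := by
  classical
  have h1 : ∑ x : C ⧸ N, F x = ∑ x ∈ Finset.univ.filter (fun x : C ⧸ N => ¬ p ∣ orderOf x), F x := by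
    rw [Finset.sum_filter]
    refine Finset.sum_congr rfl fun x _ => ?_
    by_cases h : p ∣ orderOf x
    · rw [if_neg (not_not.2 h), hF x h]
    · rw [if_pos h]
  have h2 : ∑ y : C, (if p ∣ orderOf y then 0 else F (QuotientGroup.mk y)) =
      ∑ y ∈ Finset.univ.filter (fun y : C => ¬ p ∣ orderOf y), F (QuotientGroup.mk y) := by
    rw [Finset.sum_filter]
    refine Finset.sum_congr rfl fun x _ => ?_
    by_cases h : p ∣ orderOf x
    · rw [if_pos h, if_neg (not_not.2 h)]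
    · rw [if_neg h, if_pos h]
  rw [h1, h2]
  refine Finset.sum_bij (fun y _ => (QuotientGroup.mk y : C ⧸ N)) ?_ ?_ ?_ (fun _ _ => rfl)
  · intro y hy
    rw [Finset.mem_filter] at hy ⊢
    exact ⟨Finset.mem_univ _, mk_regular N hy.2⟩
  · intro y hy y' hy' hh
    rw [Finset.mem_filter] at hy hy'
    have h3 : y * y'⁻¹ ∈ N := by
      have h4 := QuotientGroup.eq.1 hh
      have h5 := hN.conj_mem _ h4 y
      have h6 : y * (y⁻¹ * y') * y⁻¹ = (y * y'⁻¹)⁻¹ := by group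
      rw [h6] at h5
      exact (Subgroup.inv_mem_iff N).1 h5
    have h4 := ppr_mul_left hNp hC h3 y'
    have h5 : y * y'⁻¹ * y' = y := by group
    rw [h5, ppr_regular hy.2, ppr_regular hy'.2] at h4
    exact h4
  · intro x hx
    rw [Finset.mem_filter] at hx
    obtain ⟨g, hg, hgx⟩ := lift_regular N hx.2
    exact ⟨g, Finset.mem_filter.2 ⟨Finset.mem_univ _, hg⟩, hgx⟩

/-- the combination of characters -/
noncomputable def Th [Fintype (IrrCharacter (C ⧸ N))] (T : IrrCharacter (C ⧸ N) → ℤ) (x : C ⧸ N) : ℂ :=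
  ∑ ξ : IrrCharacter (C ⧸ N), (T ξ : ℂ) * (ξ : C ⧸ N → ℂ) x

theorem Th_inner [Fintype (IrrCharacter (C ⧸ N))] (T : IrrCharacter (C ⧸ N) → ℤ) (ξ : IrrCharacter (C ⧸ N)) :
    ∑ x : C ⧸ N, Th N T x * conj ((ξ : C ⧸ N → ℂ) x) = (Nat.card (C ⧸ N) : ℂ) * T ξ := by
  have h1 := ci_sum_irr (fun ξ => (T ξ : ℂ)) ξ
  have h2 : (∑ ψ : IrrCharacter (C ⧸ N), (T ψ : ℂ) • (ψ : C ⧸ N → ℂ)) = Th N T := by
    funext x
    rw [Finset.sum_apply]
    rfl
  rw [h2] at h1
  rw [← h1]
  unfold classInner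
  rw [← mul_assoc, mul_inv_cancel₀ (Nat.cast_ne_zero.2 Nat.card_pos.ne'), one_mul]

theorem Th_inner' [Fintype (IrrCharacter (C ⧸ N))] (T : IrrCharacter (C ⧸ N) → ℤ) (ξ : IrrCharacter (C ⧸ N)) :
    ∑ x : C ⧸ N, (ξ : C ⧸ N → ℂ) x * conj (Th N T x) = (Nat.card (C ⧸ N) : ℂ) * T ξ := by
  have h1 := congrArg conj (Th_inner N T ξ)
  rw [map_sum, map_mul, map_natCast, map_intCast] at h1
  rw [← h1]
  refine Finset.sum_congr rfl fun x _ => ?_
  rw [map_mul, Complex.conj_conj, mul_comm]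

theorem Th_norm [Fintype (IrrCharacter (C ⧸ N))] (T : IrrCharacter (C ⧸ N) → ℤ) :
    ∑ x : C ⧸ N, conj (Th N T x) * Th N T x = (Nat.card (C ⧸ N) : ℂ) * ∑ ξ, (T ξ : ℂ) ^ 2 := by
  have h1 : ∀ x, conj (Th N T x) * Th N T x = ∑ ξ : IrrCharacter (C ⧸ N), (T ξ : ℂ) * (Th N T x * conj ((ξ : C ⧸ N → ℂ) x)) := by
    intro x
    have e : conj (Th N T x) = ∑ ξ : IrrCharacter (C ⧸ N), (T ξ : ℂ) * conj ((ξ : C ⧸ N → ℂ) x) := by
      rw [Th, map_sum]
      exact Finset.sum_congr rfl fun ξ _ => by rw [map_mul, map_intCast]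
    rw [e, Finset.sum_mul]
    exact Finset.sum_congr rfl fun ξ _ => by ring
  rw [Finset.sum_congr rfl fun x _ => h1 x, Finset.sum_comm, Finset.mul_sum]
  refine Finset.sum_congr rfl fun ξ _ => ?_
  rw [← Finset.mul_sum, Th_inner]; ring

open Classical in
theorem KB_Th (hM : IsPModular p M) (hb : IsPBlock M b) [Fintype (IrrCharacter C)] [Fintype (IrrCharacter (C ⧸ N))]
    {T : IrrCharacter (C ⧸ N) → ℤ} (hT : ∀ ξ, ξ ∉ Bb N b → T ξ = 0) {y : C} (hy : ¬ p ∣ orderOf y) :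
    ∑ x : C, (if p ∣ orderOf x then 0 else Th N T (QuotientGroup.mk x)) * KB b y x =
      (Nat.card C : ℂ) * Th N T (QuotientGroup.mk y) := by
  have hc : (Nat.card C : ℂ) ≠ 0 := Nat.cast_ne_zero.2 Nat.card_pos.ne'
  have h1 := blockPart_congr_reg hM hb (f := fun x => if p ∣ orderOf x then 0 else Th N T (QuotientGroup.mk x))
    (f' := fun x => Th N T (QuotientGroup.mk x)) hy (fun c hc => by beta_reduce; rw [if_neg hc])
  rw [blockPart_KB] at h1
  have h2 : blockPart b (fun x => Th N T (QuotientGroup.mk x)) y = Th N T (QuotientGroup.mk y) := by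
    rw [blockPart_KB]
    have e1 : ∀ x : C, Th N T (QuotientGroup.mk x) * KB b y x =
        ∑ ξ : IrrCharacter (C ⧸ N), (T ξ : ℂ) * (((infl N ξ : IrrCharacter C) : C → ℂ) x * KB b y x) := by
      intro x
      rw [Th, Finset.sum_mul]
      refine Finset.sum_congr rfl fun ξ _ => ?_
      rw [infl_apply]; ring
    rw [Finset.sum_congr rfl fun x _ => e1 x, Finset.sum_comm, Finset.mul_sum]
    refine Finset.sum_congr rfl fun ξ _ => ?_
    rw [← Finset.mul_sum]
    have e2 := blockPart_KB b ((infl N ξ : IrrCharacter C) : C → ℂ) y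
    rw [blockPart_irr] at e2
    by_cases hξ : ξ ∈ Bb N b
    · rw [if_pos (show infl N ξ ∈ b from hξ)] at e2
      rw [← infl_apply, e2]; ring
    · rw [hT ξ hξ]; simp
  rw [h2] at h1
  rw [← h1, ← mul_assoc, mul_inv_cancel₀ hc, one_mul]

open Classical in
theorem sum_infl [Fintype (IrrCharacter C)] [Fintype (IrrCharacter (C ⧸ N))] (f : IrrCharacter C → ℂ) :
    ∑ φ : IrrCharacter C, (if (φ ∈ b ∧ ∀ u ∈ N, (φ : C → ℂ) u = (φ : C → ℂ) 1) then f φ else 0) =
      ∑ ξ : IrrCharacter (C ⧸ N), if ξ ∈ Bb N b then f (infl N ξ) else 0 := by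
  rw [← Finset.sum_filter, ← Finset.sum_filter]
  symm
  refine Finset.sum_bij (fun ξ _ => infl N ξ) ?_ ?_ ?_ (fun _ _ => rfl)
  · intro ξ hξ
    rw [Finset.mem_filter] at hξ ⊢
    exact ⟨Finset.mem_univ _, hξ.2, fun u hu => infl_ker N ξ hu⟩
  · intro ξ _ ξ' _ hh
    exact infl_injective N hh
  · intro φ hφ
    rw [Finset.mem_filter] at hφ
    obtain ⟨ξ, hξ⟩ := exists_infl N hφ.2.2
    refine ⟨ξ, Finset.mem_filter.2 ⟨Finset.mem_univ _, ?_⟩, hξ⟩
    show infl N ξ ∈ b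
    rw [hξ]; exact hφ.2.1

end pure

section col

variable {M : Ideal AlgInt} [hMax : M.IsMaximal] {p : ℕ} [hp : Fact p.Prime]
  {G : Type*} [Group G] [Fintype G] {z : G} [Fintype (Subgroup.centralizer ({z} : Set G))]
  [hN : (Subgroup.zpowers (zz z)).Normal] [Fintype (Subgroup.centralizer ({z} : Set G) ⧸ Subgroup.zpowers (zz z))]
  [Fintype (IrrCharacter (Subgroup.centralizer ({z} : Set G)))]
  [Fintype (IrrCharacter (Subgroup.centralizer ({z} : Set G) ⧸ Subgroup.zpowers (zz z)))]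
  [Fintype (IrrCharacter G)] {b : Set (IrrCharacter (Subgroup.centralizer ({z} : Set G)))}

theorem zpN_pg (hz : ∃ k : ℕ, orderOf z = p ^ k) : IsPGroup p (Subgroup.zpowers (zz z)) := by
  obtain ⟨k, hk⟩ := zz_order hz
  exact IsPGroup.of_card (n := k) (by rw [Nat.card_zpowers, hk])

theorem zpN_cen : ∃ k : ℕ, (Subgroup.centralizer (Subgroup.zpowers (zz z) : Set (Subgroup.centralizer ({z} : Set G)))).index = p ^ k :=
  index_of_central (by rw [Subgroup.zpowers_le, Subgroup.mem_center_iff]; exact zz_comm)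

open Classical in
/-- the coordinates of the columns -/
noncomputable def AC (p : ℕ) [Fact p.Prime] (b : Set (IrrCharacter (Subgroup.centralizer ({z} : Set G)))) (χ : IrrCharacter G)
    (ξ : IrrCharacter (Subgroup.centralizer ({z} : Set G) ⧸ Subgroup.zpowers (zz z))) : ℂ :=
  ∑ ψ : IrrCharacter (Subgroup.centralizer ({z} : Set G)), if ψ ∈ b then
    ((aa (Subgroup.centralizer ({z} : Set G)) χ ψ : ℂ) * zl (zz z) ψ) *
      classInner (fun g => (ψ : Subgroup.centralizer ({z} : Set G) → ℂ) (ppr p g))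
        ((infl (Subgroup.zpowers (zz z)) ξ : IrrCharacter (Subgroup.centralizer ({z} : Set G))) : Subgroup.centralizer ({z} : Set G) → ℂ) else 0

theorem cI_int (ψ φ : IrrCharacter (Subgroup.centralizer ({z} : Set G))) : ∃ n : ℤ,
    classInner (fun g => (ψ : Subgroup.centralizer ({z} : Set G) → ℂ) (ppr p g)) (φ : Subgroup.centralizer ({z} : Set G) → ℂ) = n :=
  H25.Brauer.gen_inner_int (regPart_gen (IsIrr.isCharacter ψ.2)) (IsIrr.isCharacter φ.2)

theorem AC_mem [NeZero (orderOf z)] (χ : IrrCharacter G) (ξ : IrrCharacter (Subgroup.centralizer ({z} : Set G) ⧸ Subgroup.zpowers (zz z))) :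
    AC p b χ ξ ∈ Cyc (orderOf z) := by
  classical
  unfold AC
  refine sum_mem fun ψ _ => ?_
  split_ifs
  · obtain ⟨n, hn⟩ := cI_int (p := p) ψ (infl (Subgroup.zpowers (zz z)) ξ)
    rw [hn]
    exact mul_mem (mul_mem (natCast_mem _ _) (root_mem (zl_order zz_comm ψ (Subtype.ext (by
      show z ^ orderOf z = 1; exact pow_orderOf_eq_one z))))) (intCast_mem _ _)
  · exact zero_mem _

theorem AC_int (χ : IrrCharacter G) (ξ : IrrCharacter (Subgroup.centralizer ({z} : Set G) ⧸ Subgroup.zpowers (zz z))) :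
    IsIntegral ℤ (AC p b χ ξ) := by
  classical
  unfold AC
  refine IsIntegral.sum _ fun ψ _ => ?_
  split_ifs
  · obtain ⟨n, hn⟩ := cI_int (p := p) ψ (infl (Subgroup.zpowers (zz z)) ξ)
    rw [hn]
    refine IsIntegral.mul (IsIntegral.mul ?_ ?_) ?_
    · exact_mod_cast isIntegral_algebraMap (R := ℤ) (A := ℂ) (x := (aa (Subgroup.centralizer ({z} : Set G)) χ ψ : ℤ))
    · refine IsIntegral.of_pow (n := orderOf z) (orderOf_pos z) ?_
      rw [zl_order zz_comm ψ (Subtype.ext (by show z ^ orderOf z = 1; exact pow_orderOf_eq_one z))]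
      exact isIntegral_one
    · exact isIntegral_algebraMap (R := ℤ) (A := ℂ) (x := n)
  · exact isIntegral_zero

open Classical in
theorem bp_AC (hM : IsPModular p M) (hz : ∃ k : ℕ, orderOf z = p ^ k) (hb : IsPBlock M b) (χ : IrrCharacter G)
    {y : Subgroup.centralizer ({z} : Set G)} (hy : ¬ p ∣ orderOf y) :
    bp z b (χ : G → ℂ) y = ∑ ξ : IrrCharacter (Subgroup.centralizer ({z} : Set G) ⧸ Subgroup.zpowers (zz z)),
      if ξ ∈ Bb (Subgroup.zpowers (zz z)) b then AC p b χ ξ * (ξ : Subgroup.centralizer ({z} : Set G) ⧸ Subgroup.zpowers (zz z) → ℂ)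
        (QuotientGroup.mk y) else 0 := by
  rw [bp_eq]
  have e1 : ∀ ψ : IrrCharacter (Subgroup.centralizer ({z} : Set G)), (if ψ ∈ b then
      ((aa (Subgroup.centralizer ({z} : Set G)) χ ψ : ℂ) * zl (zz z) ψ) * (ψ : Subgroup.centralizer ({z} : Set G) → ℂ) y else 0) =
      ∑ ξ : IrrCharacter (Subgroup.centralizer ({z} : Set G) ⧸ Subgroup.zpowers (zz z)),
      if ξ ∈ Bb (Subgroup.zpowers (zz z)) b then (if ψ ∈ b then
    ((aa (Subgroup.centralizer ({z} : Set G)) χ ψ : ℂ) * zl (zz z) ψ) *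
      classInner (fun g => (ψ : Subgroup.centralizer ({z} : Set G) → ℂ) (ppr p g))
        ((infl (Subgroup.zpowers (zz z)) ξ : IrrCharacter (Subgroup.centralizer ({z} : Set G))) : Subgroup.centralizer ({z} : Set G) → ℂ) else 0) *
        (ξ : Subgroup.centralizer ({z} : Set G) ⧸ Subgroup.zpowers (zz z) → ℂ) (QuotientGroup.mk y) else 0 := by
    intro ψ
    by_cases hψ : ψ ∈ b
    · simp only [if_pos hψ]
      have h1 := lemD (Subgroup.zpowers (zz z)) hM (zpN_pg hz) zpN_cen hb hψ y hy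
      rw [sum_infl (Subgroup.zpowers (zz z)) (b := b) (fun φ => classInner (fun g => (ψ : Subgroup.centralizer ({z} : Set G) → ℂ) (ppr p g))
        (φ : Subgroup.centralizer ({z} : Set G) → ℂ) * (φ : Subgroup.centralizer ({z} : Set G) → ℂ) y)] at h1
      rw [h1, Finset.mul_sum]
      refine Finset.sum_congr rfl fun ξ _ => ?_
      split_ifs
      · rw [infl_apply]; ring
      · rw [mul_zero]
    · simp only [if_neg hψ, zero_mul, ite_self, Finset.sum_const_zero]
  rw [Finset.sum_congr rfl fun ψ _ => e1 ψ, Finset.sum_comm]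
  refine Finset.sum_congr rfl fun ξ _ => ?_
  by_cases hξ : ξ ∈ Bb (Subgroup.zpowers (zz z)) b
  · simp only [if_pos hξ]
    rw [← Finset.sum_mul]
    rfl
  · simp only [if_neg hξ, Finset.sum_const_zero]

open Classical in
theorem w_eq (hM : IsPModular p M) (hz : ∃ k : ℕ, orderOf z = p ^ k) (hb : IsPBlock M b) (χ : IrrCharacter G)
    {T : IrrCharacter (Subgroup.centralizer ({z} : Set G) ⧸ Subgroup.zpowers (zz z)) → ℤ}
    (hT : ∀ ξ, ξ ∉ Bb (Subgroup.zpowers (zz z)) b → T ξ = 0) (hΘ : ∀ x, p ∣ orderOf x → Th (Subgroup.zpowers (zz z)) T x = 0) :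
    (Nat.card (Subgroup.centralizer ({z} : Set G) ⧸ Subgroup.zpowers (zz z)) : ℂ) * ∑ ξ, (T ξ : ℂ) * AC p b χ ξ =
      ∑ y : Subgroup.centralizer ({z} : Set G), (if p ∣ orderOf y then 0 else bp z b (χ : G → ℂ) y *
        conj (Th (Subgroup.zpowers (zz z)) T (QuotientGroup.mk y))) := by
  have e1 : ∀ y : Subgroup.centralizer ({z} : Set G), (if p ∣ orderOf y then 0 else bp z b (χ : G → ℂ) y *
        conj (Th (Subgroup.zpowers (zz z)) T (QuotientGroup.mk y))) =
      (if p ∣ orderOf y then 0 else (fun x : Subgroup.centralizer ({z} : Set G) ⧸ Subgroup.zpowers (zz z) =>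
        ∑ ξ : IrrCharacter (Subgroup.centralizer ({z} : Set G) ⧸ Subgroup.zpowers (zz z)),
          (if ξ ∈ Bb (Subgroup.zpowers (zz z)) b then AC p b χ ξ * ((ξ : Subgroup.centralizer ({z} : Set G) ⧸ Subgroup.zpowers (zz z) → ℂ) x *
            conj (Th (Subgroup.zpowers (zz z)) T x)) else 0)) (QuotientGroup.mk y)) := by
    intro y
    by_cases hy : p ∣ orderOf y
    · rw [if_pos hy, if_pos hy]
    · rw [if_neg hy, if_neg hy, bp_AC hM hz hb χ hy, Finset.sum_mul]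
      refine Finset.sum_congr rfl fun ξ _ => ?_
      split_ifs
      · ring
      · rw [zero_mul]
  have e2 := reg_sum (Subgroup.zpowers (zz z)) (zpN_pg hz) zpN_cen
    (fun x : Subgroup.centralizer ({z} : Set G) ⧸ Subgroup.zpowers (zz z) =>
        ∑ ξ : IrrCharacter (Subgroup.centralizer ({z} : Set G) ⧸ Subgroup.zpowers (zz z)),
          (if ξ ∈ Bb (Subgroup.zpowers (zz z)) b then AC p b χ ξ * ((ξ : Subgroup.centralizer ({z} : Set G) ⧸ Subgroup.zpowers (zz z) → ℂ) x *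
            conj (Th (Subgroup.zpowers (zz z)) T x)) else 0)) (fun x hx => by
    refine Finset.sum_eq_zero fun ξ _ => ?_
    rw [hΘ x hx, map_zero, mul_zero, mul_zero, ite_self])
  refine Eq.trans ?_ ((Finset.sum_congr rfl fun y _ => e1 y).trans e2).symm
  rw [Finset.sum_comm, Finset.mul_sum]
  refine Finset.sum_congr rfl fun ξ _ => ?_
  by_cases hξ : ξ ∈ Bb (Subgroup.zpowers (zz z)) b
  · simp only [if_pos hξ]
    rw [← Finset.mul_sum, Th_inner']; ring
  · simp only [if_neg hξ, Finset.sum_const_zero, hT ξ hξ, Int.cast_zero, zero_mul, mul_zero]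

open Classical in
theorem col_norm (hM : IsPModular p M) (hz : ∃ k : ℕ, orderOf z = p ^ k) (hb : IsPBlock M b)
    {T : IrrCharacter (Subgroup.centralizer ({z} : Set G) ⧸ Subgroup.zpowers (zz z)) → ℤ}
    (hT : ∀ ξ, ξ ∉ Bb (Subgroup.zpowers (zz z)) b → T ξ = 0) (hΘ : ∀ x, p ∣ orderOf x → Th (Subgroup.zpowers (zz z)) T x = 0) :
    ∑ χ : IrrCharacter G, (∑ ξ, (T ξ : ℂ) * AC p b χ ξ) * conj (∑ ξ, (T ξ : ℂ) * AC p b χ ξ) =
      (orderOf z : ℂ) * ∑ ξ, (T ξ : ℂ) ^ 2 := by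
  set N := Subgroup.zpowers (zz z) with hNdef
  set θ : Subgroup.centralizer ({z} : Set G) → ℂ := fun y => if p ∣ orderOf y then 0 else Th N T (QuotientGroup.mk y) with hθ
  have hcQ : (Nat.card (Subgroup.centralizer ({z} : Set G) ⧸ N) : ℂ) ≠ 0 := Nat.cast_ne_zero.2 Nat.card_pos.ne'
  have hcard : (Nat.card (Subgroup.centralizer ({z} : Set G)) : ℂ) = (Nat.card (Subgroup.centralizer ({z} : Set G) ⧸ N) : ℂ) * orderOf z := by
    have h1 := Subgroup.card_eq_card_quotient_mul_card_subgroup N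
    have h2 : Nat.card N = orderOf z := by
      rw [hNdef, Nat.card_zpowers]
      exact (Subgroup.orderOf_coe (zz z)).symm
    rw [h2] at h1
    exact_mod_cast h1
  have e1 : ∀ χ : IrrCharacter G, (Nat.card (Subgroup.centralizer ({z} : Set G) ⧸ N) : ℂ) * ∑ ξ, (T ξ : ℂ) * AC p b χ ξ =
      ∑ y, (if p ∣ orderOf y then 0 else bp z b (χ : G → ℂ) y) * conj (θ y) := by
    intro χ
    rw [w_eq hM hz hb χ hT hΘ]
    refine Finset.sum_congr rfl fun y _ => ?_
    rw [hθ]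
    by_cases hy : p ∣ orderOf y
    · simp only [if_pos hy, zero_mul]
    · simp only [if_neg hy]
      rfl
  have e2 : ∑ χ : IrrCharacter G, (∑ y, (if p ∣ orderOf y then 0 else bp z b (χ : G → ℂ) y) * conj (θ y)) *
      conj (∑ y, (if p ∣ orderOf y then 0 else bp z b (χ : G → ℂ) y) * conj (θ y)) =
      ∑ y : Subgroup.centralizer ({z} : Set G), conj (θ y) * ∑ y' : Subgroup.centralizer ({z} : Set G), θ y' * KB b y y' := by
    have e3 : ∀ χ : IrrCharacter G, (∑ y, (if p ∣ orderOf y then 0 else bp z b (χ : G → ℂ) y) * conj (θ y)) *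
      conj (∑ y, (if p ∣ orderOf y then 0 else bp z b (χ : G → ℂ) y) * conj (θ y)) =
      ∑ y : Subgroup.centralizer ({z} : Set G), ∑ y' : Subgroup.centralizer ({z} : Set G), conj (θ y) * (θ y' *
        ((if p ∣ orderOf y then 0 else bp z b (χ : G → ℂ) y) * conj (if p ∣ orderOf y' then 0 else bp z b (χ : G → ℂ) y'))) := by
      intro χ
      rw [map_sum, Finset.sum_mul_sum]
      refine Finset.sum_congr rfl fun y _ => Finset.sum_congr rfl fun y' _ => ?_
      rw [map_mul, Complex.conj_conj]; ring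
    rw [Finset.sum_congr rfl fun χ _ => e3 χ, Finset.sum_comm]
    refine Finset.sum_congr rfl fun y _ => ?_
    rw [Finset.sum_comm, Finset.mul_sum]
    refine Finset.sum_congr rfl fun y' _ => ?_
    rw [← Finset.mul_sum, ← Finset.mul_sum]
    by_cases hy : p ∣ orderOf y
    · simp only [hθ, if_pos hy, map_zero, zero_mul]
    by_cases hy' : p ∣ orderOf y'
    · simp only [hθ, if_pos hy', zero_mul, mul_zero]
    simp only [if_neg hy, if_neg hy']
    rw [orth_bp hM hz hb y y' hy hy']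
  have e4 : ∑ y : Subgroup.centralizer ({z} : Set G), conj (θ y) * ∑ y' : Subgroup.centralizer ({z} : Set G), θ y' * KB b y y' =
      (Nat.card (Subgroup.centralizer ({z} : Set G)) : ℂ) * ((Nat.card (Subgroup.centralizer ({z} : Set G) ⧸ N) : ℂ) * ∑ ξ, (T ξ : ℂ) ^ 2) := by
    rw [← Th_norm, ← reg_sum N (zpN_pg hz) zpN_cen (fun x => conj (Th N T x) * Th N T x) (fun x hx => by rw [hΘ x hx, mul_zero]),
      Finset.mul_sum]
    refine Finset.sum_congr rfl fun y _ => ?_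
    by_cases hy : p ∣ orderOf y
    · simp only [hθ, if_pos hy, map_zero, zero_mul, mul_zero]
    · have h5 := KB_Th N hM hb hT hy
      have h6 : ∑ y' : Subgroup.centralizer ({z} : Set G), θ y' * KB b y y' =
          (Nat.card (Subgroup.centralizer ({z} : Set G)) : ℂ) * Th N T (QuotientGroup.mk y) := h5
      rw [h6]
      simp only [hθ, if_neg hy]
      ring
  have e5 : ∑ χ : IrrCharacter G, ((Nat.card (Subgroup.centralizer ({z} : Set G) ⧸ N) : ℂ) * ∑ ξ, (T ξ : ℂ) * AC p b χ ξ) *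
      conj ((Nat.card (Subgroup.centralizer ({z} : Set G) ⧸ N) : ℂ) * ∑ ξ, (T ξ : ℂ) * AC p b χ ξ) =
      (Nat.card (Subgroup.centralizer ({z} : Set G)) : ℂ) * ((Nat.card (Subgroup.centralizer ({z} : Set G) ⧸ N) : ℂ) * ∑ ξ, (T ξ : ℂ) ^ 2) := by
    rw [← e4, ← e2]
    exact Finset.sum_congr rfl fun χ _ => by rw [e1 χ]
  have e6 : ∑ χ : IrrCharacter G, ((Nat.card (Subgroup.centralizer ({z} : Set G) ⧸ N) : ℂ) * ∑ ξ, (T ξ : ℂ) * AC p b χ ξ) *
      conj ((Nat.card (Subgroup.centralizer ({z} : Set G) ⧸ N) : ℂ) * ∑ ξ, (T ξ : ℂ) * AC p b χ ξ) =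
      ((Nat.card (Subgroup.centralizer ({z} : Set G) ⧸ N) : ℂ) * (Nat.card (Subgroup.centralizer ({z} : Set G) ⧸ N) : ℂ)) *
      ∑ χ : IrrCharacter G, (∑ ξ, (T ξ : ℂ) * AC p b χ ξ) * conj (∑ ξ, (T ξ : ℂ) * AC p b χ ξ) := by
    rw [Finset.mul_sum]
    refine Finset.sum_congr rfl fun χ _ => ?_
    rw [map_mul, map_natCast]; ring
  rw [e6, hcard] at e5
  apply mul_left_cancel₀ (mul_ne_zero hcQ hcQ)
  rw [e5]; ring

end col

end Cfsg.Agent.H25.Czs
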