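import Mathlib
import Cfsg.Agent.H25_Czs

/-!
H25_Czt: counting the nonzero rows of a subsection with cyclic quotient.
-/

set_option autoImplicit false
set_option linter.unusedSectionVars false

open scoped ComplexConjugate

namespace Cfsg.Agent.H25.Czt

open Cfsg Cfsg.Agent.H3 Cfsg.Agent.H3.CharIrr Cfsg.Agent.H3.CharComplete Cfsg.Agent.H3.CharBasic
  Cfsg.Agent.H10.BlockLoc Cfsg.Agent.H10.BlockAlg Cfsg.Agent.H10.BlockIdem Cfsg.Agent.H10.Char
  Cfsg.Agent.H10.BlockSMT Cfsg.Agent.H10.BlockSMT2 Cfsg.Agent.H10.BlockTrace Cfsg.Agent.H10.BlockDefect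
  Cfsg.Agent.H10.BlockMain Cfsg.Agent.H10.BlockHZ Cfsg.Agent.H10.BlockOrth
  Cfsg.Agent.H10.PPart Cfsg.Agent.H25.IndCong Cfsg.Agent.H25.Red
  Cfsg.Agent.H25.Sub Cfsg.Agent.H25.Sub2 Cfsg.Agent.H10.BlockKer
  Cfsg.Agent.H10.RegPart Cfsg.Agent.H10.BlockQuot Cfsg.Agent.H25.Dom Cfsg.Agent.H3.CharGal
  Cfsg.Agent.H25.Czq Cfsg.Agent.H25.Czr Cfsg.Agent.H25.Czs

section ct

variable {M : Ideal AlgInt} [hMax : M.IsMaximal] {p : ℕ} [hp : Fact p.Prime]
  {G : Type*} [Group G] [Fintype G] {z : G} [Fintype (Subgroup.centralizer ({z} : Set G))]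
  [hN : (Subgroup.zpowers (zz z)).Normal] [Fintype (Subgroup.centralizer ({z} : Set G) ⧸ Subgroup.zpowers (zz z))]
  [Fintype (IrrCharacter (Subgroup.centralizer ({z} : Set G)))]
  [Fintype (IrrCharacter (Subgroup.centralizer ({z} : Set G) ⧸ Subgroup.zpowers (zz z)))]
  [Fintype (IrrCharacter G)] {b : Set (IrrCharacter (Subgroup.centralizer ({z} : Set G)))}

open Classical in
/-- the coefficient vectors -/
noncomputable def TT {Q : Type*} [Group Q] (X Y : Finset (IrrCharacter Q)) (δ : IrrCharacter Q → ℤ) (ε : ℤ) :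
    Option X → IrrCharacter Q → ℤ
  | some ξ => fun ζ => if ζ = ξ.1 then δ ζ else 0
  | none => fun ζ => if ζ ∈ Y then -ε else 0

/-- the weights -/
def wt {α : Type*} (m : ℕ) : Option α → ℕ
  | some _ => 1
  | none => m

theorem TT_sq {Q : Type*} [Group Q] [Fintype (IrrCharacter Q)] {X Y : Finset (IrrCharacter Q)} {δ : IrrCharacter Q → ℤ} {ε : ℤ}
    (hδ : ∀ χ ∈ X, δ χ = 1 ∨ δ χ = -1) (hε : ε = 1 ∨ ε = -1) (i : Option X) :
    ∑ ζ, TT X Y δ ε i ζ * TT X Y δ ε i ζ = wt Y.card i := by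
  classical
  cases i with
  | some ξ =>
    simp only [TT, wt]
    rw [Finset.sum_eq_single ξ.1]
    · rw [if_pos rfl]
      rcases hδ ξ.1 ξ.2 with h | h <;> rw [h] <;> norm_num
    · intro ζ _ hζ; rw [if_neg hζ, zero_mul]
    · intro h; exact absurd (Finset.mem_univ _) h
  | none =>
    simp only [TT, wt]
    have h1 : ∀ ζ, (if ζ ∈ Y then -ε else 0) * (if ζ ∈ Y then -ε else 0) = if ζ ∈ Y then (1 : ℤ) else 0 := by
      intro ζ
      split_ifs
      · rcases hε with h | h <;> rw [h] <;> norm_num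
      · rfl
    rw [Finset.sum_congr rfl fun ζ _ => h1 ζ, Finset.sum_ite_mem, Finset.univ_inter, Finset.sum_const, nsmul_eq_mul, mul_one]

theorem TT_orth {Q : Type*} [Group Q] [Fintype (IrrCharacter Q)] {X Y : Finset (IrrCharacter Q)} {δ : IrrCharacter Q → ℤ} {ε : ℤ}
    (hd : Disjoint X Y) {i j : Option X} (hij : i ≠ j) :
    ∑ ζ, TT X Y δ ε i ζ * TT X Y δ ε j ζ = 0 := by
  classical
  refine Finset.sum_eq_zero fun ζ _ => ?_
  cases i with
  | some ξ =>
    cases j with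
    | some ξ' =>
      simp only [TT]
      by_cases h : ζ = ξ.1
      · rw [if_neg (fun h' : ζ = ξ'.1 => hij (congrArg some (Subtype.ext (h.symm.trans h')))), mul_zero]
      · rw [if_neg h, zero_mul]
    | none =>
      simp only [TT]
      by_cases h : ζ = ξ.1
      · rw [if_neg (fun h' : ζ ∈ Y => Finset.disjoint_left.1 hd ξ.2 (h ▸ h')), mul_zero]
      · rw [if_neg h, zero_mul]
  | none =>
    cases j with
    | some ξ' =>
      simp only [TT]
      by_cases h : ζ = ξ'.1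
      · rw [if_neg (fun h' : ζ ∈ Y => Finset.disjoint_left.1 hd ξ'.2 (h ▸ h')), zero_mul]
      · rw [if_neg h, mul_zero]
    | none => exact absurd rfl hij

theorem TT_diff {Q : Type*} [Group Q] [Fintype (IrrCharacter Q)] {X Y : Finset (IrrCharacter Q)} {δ : IrrCharacter Q → ℤ} {ε : ℤ}
    (hδ : ∀ χ ∈ X, δ χ = 1 ∨ δ χ = -1) (hε : ε = 1 ∨ ε = -1) (hd : Disjoint X Y) {i j : Option X} (hij : i ≠ j) :
    ∑ ζ, (TT X Y δ ε i ζ - TT X Y δ ε j ζ) ^ 2 = ((wt Y.card i + wt Y.card j : ℕ) : ℤ) := by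
  have h1 : ∀ ζ, (TT X Y δ ε i ζ - TT X Y δ ε j ζ) ^ 2 = TT X Y δ ε i ζ * TT X Y δ ε i ζ + TT X Y δ ε j ζ * TT X Y δ ε j ζ -
      2 * (TT X Y δ ε i ζ * TT X Y δ ε j ζ) := fun ζ => by ring
  rw [Finset.sum_congr rfl fun ζ _ => h1 ζ, Finset.sum_sub_distrib, Finset.sum_add_distrib, ← Finset.mul_sum,
    TT_sq hδ hε, TT_sq hδ hε, TT_orth hd hij]
  push_cast; ring

theorem wt_sum {α : Type*} [Fintype α] (m : ℕ) : ∑ i : Option α, wt m i = Fintype.card α + m := by
  rw [Fintype.sum_option]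
  simp only [wt, Finset.sum_const, Finset.card_univ, smul_eq_mul, mul_one]
  ring

theorem total {I : Type*} [Fintype I] [DecidableEq I] (c : ℕ) (n : I → ℕ) :
    ∑ i, ∑ j, (if i = j then 0 else c * (n i + n j)) + 2 * c * ∑ i, n i = 2 * c * Fintype.card I * ∑ i, n i := by
  have h1 : ∀ i, ∑ j, (if i = j then 0 else c * (n i + n j)) + 2 * c * n i = c * (Fintype.card I * n i + ∑ j, n j) := by
    intro i
    have h2 : ∑ j, (if i = j then 0 else c * (n i + n j)) + 2 * c * n i = ∑ j, c * (n i + n j) := by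
      have h3 : 2 * c * n i = ∑ j, (if i = j then 2 * c * n i else 0) := by
        rw [Finset.sum_ite_eq Finset.univ i, if_pos (Finset.mem_univ _)]
      rw [h3, ← Finset.sum_add_distrib]
      refine Finset.sum_congr rfl fun j _ => ?_
      by_cases hij : i = j
      · rw [if_pos hij, if_pos hij, hij]; ring
      · rw [if_neg hij, if_neg hij]; ring
    rw [h2, ← Finset.mul_sum, Finset.sum_add_distrib, Finset.sum_const, Finset.card_univ, smul_eq_mul]
  rw [Finset.mul_sum, ← Finset.sum_add_distrib, Finset.sum_congr rfl fun i _ => h1 i, ← Finset.mul_sum, Finset.sum_add_distrib,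
    Finset.sum_const, Finset.card_univ, smul_eq_mul, ← Finset.mul_sum]
  ring

theorem Th_TT {X Y : Finset (IrrCharacter (Subgroup.centralizer ({z} : Set G) ⧸ Subgroup.zpowers (zz z)))}
    {δ : IrrCharacter (Subgroup.centralizer ({z} : Set G) ⧸ Subgroup.zpowers (zz z)) → ℤ} {ε : ℤ}
    (h : CD p (Bb (Subgroup.zpowers (zz z)) b) X Y δ ε) (i : Option X)
    {x : Subgroup.centralizer ({z} : Set G) ⧸ Subgroup.zpowers (zz z)} (hx : p ∣ orderOf x) :
    Th (Subgroup.zpowers (zz z)) (TT X Y δ ε i) x = -(ε : ℂ) * ∑ ψ ∈ Y, (ψ : Subgroup.centralizer ({z} : Set G) ⧸ Subgroup.zpowers (zz z) → ℂ) x := by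
  classical
  unfold Th
  cases i with
  | some ξ =>
    simp only [TT]
    rw [Finset.sum_eq_single ξ.1]
    · rw [if_pos rfl]
      have h1 := h.sing ξ.1 ξ.2 x hx
      linear_combination h1
    · intro ζ _ hζ; rw [if_neg hζ, Int.cast_zero, zero_mul]
    · intro h; exact absurd (Finset.mem_univ _) h
  | none =>
    have h1 : ∀ ζ : IrrCharacter (Subgroup.centralizer ({z} : Set G) ⧸ Subgroup.zpowers (zz z)),
        (TT X Y δ ε none ζ : ℂ) * (ζ : Subgroup.centralizer ({z} : Set G) ⧸ Subgroup.zpowers (zz z) → ℂ) x =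
        if ζ ∈ Y then -(ε : ℂ) * (ζ : Subgroup.centralizer ({z} : Set G) ⧸ Subgroup.zpowers (zz z) → ℂ) x else 0 := by
      intro ζ
      simp only [TT]
      split_ifs
      · push_cast; ring
      · rw [Int.cast_zero, zero_mul]
    rw [Finset.sum_congr rfl fun ζ _ => h1 ζ, Finset.sum_ite_mem, Finset.univ_inter, Finset.mul_sum]

theorem TT_out {X Y : Finset (IrrCharacter (Subgroup.centralizer ({z} : Set G) ⧸ Subgroup.zpowers (zz z)))}
    {δ : IrrCharacter (Subgroup.centralizer ({z} : Set G) ⧸ Subgroup.zpowers (zz z)) → ℤ} {ε : ℤ}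
    (h : CD p (Bb (Subgroup.zpowers (zz z)) b) X Y δ ε) (i : Option X)
    {ζ : IrrCharacter (Subgroup.centralizer ({z} : Set G) ⧸ Subgroup.zpowers (zz z))} (hζ : ζ ∉ Bb (Subgroup.zpowers (zz z)) b) :
    TT X Y δ ε i ζ = 0 := by
  classical
  cases i with
  | some ξ =>
    simp only [TT]
    exact if_neg (fun h' => hζ (by rw [h']; exact (h.mem _).2 (Or.inl ξ.2)))
  | none =>
    simp only [TT]
    exact if_neg (fun h' => hζ ((h.mem _).2 (Or.inr h')))

/-- the linear forms -/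
noncomputable def lf [NeZero (orderOf z)] (b : Set (IrrCharacter (Subgroup.centralizer ({z} : Set G))))
    (X Y : Finset (IrrCharacter (Subgroup.centralizer ({z} : Set G) ⧸ Subgroup.zpowers (zz z))))
    (δ : IrrCharacter (Subgroup.centralizer ({z} : Set G) ⧸ Subgroup.zpowers (zz z)) → ℤ) (ε : ℤ) (p : ℕ) [Fact p.Prime]
    (χ : IrrCharacter G) (i : Option X) : Cyc (orderOf z) :=
  ⟨∑ ζ, (TT X Y δ ε i ζ : ℂ) * AC p b χ ζ, sum_mem fun ζ _ => mul_mem (intCast_mem _ _) (AC_mem χ ζ)⟩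

theorem lf_const (hM : IsPModular p M) (hz : ∃ k : ℕ, orderOf z = p ^ k) (hb : IsPBlock M b) [NeZero (orderOf z)]
    {X Y : Finset (IrrCharacter (Subgroup.centralizer ({z} : Set G) ⧸ Subgroup.zpowers (zz z)))}
    {δ : IrrCharacter (Subgroup.centralizer ({z} : Set G) ⧸ Subgroup.zpowers (zz z)) → ℤ} {ε : ℤ}
    (h : CD p (Bb (Subgroup.zpowers (zz z)) b) X Y δ ε) {χ : IrrCharacter G}
    (hall : ∀ i j, lf b X Y δ ε p χ i = lf b X Y δ ε p χ j) {y : Subgroup.centralizer ({z} : Set G)} (hy : ¬ p ∣ orderOf y) :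
    bp z b (χ : G → ℂ) y = 0 := by
  classical
  have hεε : (ε : ℂ) * ε = 1 := by rcases h.hε with hh | hh <;> rw [hh] <;> norm_num
  have hys : ¬ p ∣ orderOf (QuotientGroup.mk y : Subgroup.centralizer ({z} : Set G) ⧸ Subgroup.zpowers (zz z)) :=
    mk_regular (Subgroup.zpowers (zz z)) hy
  have hX : ∀ ξ ∈ X, AC p b χ ξ = (δ ξ : ℂ) * (-(ε : ℂ) * ∑ ζ ∈ Y, AC p b χ ζ) := by
    intro ξ hξ
    have h1 := congrArg (fun w : Cyc (orderOf z) => (w : ℂ)) (hall (some ⟨ξ, hξ⟩) none)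
    have h2 : ((lf b X Y δ ε p χ (some ⟨ξ, hξ⟩) : Cyc (orderOf z)) : ℂ) = (δ ξ : ℂ) * AC p b χ ξ := by
      show ∑ ζ, (TT X Y δ ε (some ⟨ξ, hξ⟩) ζ : ℂ) * AC p b χ ζ = _
      rw [Finset.sum_eq_single ξ]
      · simp only [TT]; rw [if_pos trivial]
      · intro ζ _ hζ; simp only [TT]; rw [if_neg hζ, Int.cast_zero, zero_mul]
      · intro hh; exact absurd (Finset.mem_univ _) hh
    have h3 : ((lf b X Y δ ε p χ none : Cyc (orderOf z)) : ℂ) = -(ε : ℂ) * ∑ ζ ∈ Y, AC p b χ ζ := by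
      show ∑ ζ, (TT X Y δ ε none ζ : ℂ) * AC p b χ ζ = _
      have e1 : ∀ ζ : IrrCharacter (Subgroup.centralizer ({z} : Set G) ⧸ Subgroup.zpowers (zz z)),
          (TT X Y δ ε none ζ : ℂ) * AC p b χ ζ = if ζ ∈ Y then -(ε : ℂ) * AC p b χ ζ else 0 := by
        intro ζ
        simp only [TT]
        split_ifs
        · push_cast; ring
        · rw [Int.cast_zero, zero_mul]
      rw [Finset.sum_congr rfl fun ζ _ => e1 ζ, Finset.sum_ite_mem, Finset.univ_inter, Finset.mul_sum]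
    rw [h2, h3] at h1
    have hδδ : (δ ξ : ℂ) * δ ξ = 1 := by rcases h.hδ ξ hξ with hh | hh <;> rw [hh] <;> norm_num
    rw [← h1, ← mul_assoc, hδδ, one_mul]
  have hdis := h.dis
  rw [bp_AC hM hz hb χ hy]
  have e2 : ∀ ζ : IrrCharacter (Subgroup.centralizer ({z} : Set G) ⧸ Subgroup.zpowers (zz z)),
      (if ζ ∈ Bb (Subgroup.zpowers (zz z)) b then AC p b χ ζ * (ζ : Subgroup.centralizer ({z} : Set G) ⧸ Subgroup.zpowers (zz z) → ℂ)
        (QuotientGroup.mk y) else 0) = (if ζ ∈ X ∪ Y then AC p b χ ζ * (ζ : Subgroup.centralizer ({z} : Set G) ⧸ Subgroup.zpowers (zz z) → ℂ)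
        (QuotientGroup.mk y) else 0) := by
    intro ζ
    by_cases hζ : ζ ∈ Bb (Subgroup.zpowers (zz z)) b
    · rw [if_pos hζ, if_pos (Finset.mem_union.2 ((h.mem ζ).1 hζ))]
    · rw [if_neg hζ, if_neg (fun hh => hζ ((h.mem ζ).2 (Finset.mem_union.1 hh)))]
  rw [Finset.sum_congr rfl fun ζ _ => e2 ζ, Finset.sum_ite_mem, Finset.univ_inter, Finset.sum_union hdis]
  have e3 : ∑ ζ ∈ X, AC p b χ ζ * (ζ : Subgroup.centralizer ({z} : Set G) ⧸ Subgroup.zpowers (zz z) → ℂ) (QuotientGroup.mk y) =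
      (-(ε : ℂ) * ∑ ζ ∈ Y, AC p b χ ζ) * ∑ ζ ∈ X, (δ ζ : ℂ) * (ζ : Subgroup.centralizer ({z} : Set G) ⧸ Subgroup.zpowers (zz z) → ℂ) (QuotientGroup.mk y) := by
    rw [Finset.mul_sum]
    refine Finset.sum_congr rfl fun ζ hζ => ?_
    rw [hX ζ hζ]; ring
  have e4 : ∑ ζ ∈ Y, AC p b χ ζ * (ζ : Subgroup.centralizer ({z} : Set G) ⧸ Subgroup.zpowers (zz z) → ℂ) (QuotientGroup.mk y) =
      (∑ ζ ∈ Y, AC p b χ ζ) * ((ε : ℂ) * ∑ ζ ∈ X, (δ ζ : ℂ) * (ζ : Subgroup.centralizer ({z} : Set G) ⧸ Subgroup.zpowers (zz z) → ℂ) (QuotientGroup.mk y)) := by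
    rw [Finset.sum_mul]
    refine Finset.sum_congr rfl fun ζ hζ => ?_
    rw [← h.rel ζ hζ _ hys, ← mul_assoc (ε : ℂ), hεε, one_mul]
  rw [e3, e4]; ring

/-- the bound -/
theorem ct (hM : IsPModular p M) (hz : ∃ k : ℕ, orderOf z = p ^ k) (hb : IsPBlock M b) [NeZero (orderOf z)]
    {X Y : Finset (IrrCharacter (Subgroup.centralizer ({z} : Set G) ⧸ Subgroup.zpowers (zz z)))}
    {δ : IrrCharacter (Subgroup.centralizer ({z} : Set G) ⧸ Subgroup.zpowers (zz z)) → ℤ} {ε : ℤ}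
    (h : CD p (Bb (Subgroup.zpowers (zz z)) b) X Y δ ε) (hX : 0 < X.card) (S : Finset (IrrCharacter G))
    (hS : ∀ χ ∈ S, ∃ y : Subgroup.centralizer ({z} : Set G), ¬ p ∣ orderOf y ∧ bp z b (χ : G → ℂ) y ≠ 0) :
    S.card ≤ orderOf z * (X.card + Y.card) := by
  classical
  have h1 := count_main (n := orderOf z) (fun (χ : IrrCharacter G) (i : Option X) => lf b X Y δ ε p χ i)
    (fun χ i => by
      show IsIntegral ℤ (∑ ζ, (TT X Y δ ε i ζ : ℂ) * AC p b χ ζ)
      exact IsIntegral.sum _ fun ζ _ => IsIntegral.mul (isIntegral_algebraMap (R := ℤ) (A := ℂ) (x := TT X Y δ ε i ζ)) (AC_int χ ζ))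
    (fun i j => if i = j then 0 else orderOf z * (wt Y.card i + wt Y.card j)) (fun i j => by
      by_cases hij : i = j
      · subst hij
        rw [if_pos rfl, Nat.cast_zero]
        exact Finset.sum_eq_zero fun χ _ => by rw [sub_self, zero_mul]
      · rw [if_neg hij]
        have e1 := col_norm hM hz hb (T := fun ζ => TT X Y δ ε i ζ - TT X Y δ ε j ζ)
          (fun ζ hζ => by beta_reduce; rw [TT_out h i hζ, TT_out h j hζ, sub_self]) (fun x hx => by
            have e2 : Th (Subgroup.zpowers (zz z)) (fun ζ => TT X Y δ ε i ζ - TT X Y δ ε j ζ) x =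
                Th (Subgroup.zpowers (zz z)) (TT X Y δ ε i) x - Th (Subgroup.zpowers (zz z)) (TT X Y δ ε j) x := by
              unfold Th
              rw [← Finset.sum_sub_distrib]
              refine Finset.sum_congr rfl fun ζ _ => ?_
              push_cast; ring
            rw [e2, Th_TT h i hx, Th_TT h j hx, sub_self])
        have e3 : ∑ ζ, (((TT X Y δ ε i ζ - TT X Y δ ε j ζ : ℤ)) : ℂ) ^ 2 = ((wt Y.card i + wt Y.card j : ℕ) : ℂ) := by
          have := TT_diff h.hδ h.hε h.dis hij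
          exact_mod_cast this
        rw [e3] at e1
        rw [Nat.cast_mul, ← e1]
        refine Finset.sum_congr rfl fun χ _ => ?_
        have e4 : ((lf b X Y δ ε p χ i : Cyc (orderOf z)) : ℂ) - (lf b X Y δ ε p χ j : Cyc (orderOf z)) =
            ∑ ζ, (((TT X Y δ ε i ζ - TT X Y δ ε j ζ : ℤ)) : ℂ) * AC p b χ ζ := by
          show ∑ ζ, (TT X Y δ ε i ζ : ℂ) * AC p b χ ζ - ∑ ζ, (TT X Y δ ε j ζ : ℂ) * AC p b χ ζ = _
          rw [← Finset.sum_sub_distrib]
          refine Finset.sum_congr rfl fun ζ _ => ?_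
          push_cast; ring
        rw [e4]) S (fun χ hχ => by
      by_contra hcon
      push Not at hcon
      obtain ⟨y, hy, hne⟩ := hS χ hχ
      exact hne (lf_const hM hz hb h hcon hy))
  have h2 := total (orderOf z) (wt (α := X) Y.card)
  rw [wt_sum] at h2
  have h3 : Fintype.card (Option X) = X.card + 1 := by rw [Fintype.card_option, Fintype.card_coe]
  rw [h3, Fintype.card_coe] at h2
  rw [h3] at h1
  have h4 : 2 * (X.card + 1 - 1) = 2 * X.card := by omega
  rw [h4] at h1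
  have h5 : (∑ i, ∑ j, if i = j then 0 else orderOf z * (wt Y.card i + wt (α := X) Y.card j)) = 2 * orderOf z * X.card * (X.card + Y.card) := by
    have h6 : 2 * orderOf z * (X.card + 1) * (X.card + Y.card) = 2 * orderOf z * X.card * (X.card + Y.card) + 2 * orderOf z * (X.card + Y.card) := by ring
    rw [h6] at h2
    exact Nat.add_right_cancel h2
  rw [h5] at h1
  have h7 : (2 * X.card) * S.card ≤ (2 * X.card) * (orderOf z * (X.card + Y.card)) := by
    calc (2 * X.card) * S.card = S.card * (2 * X.card) := by ring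
      _ ≤ _ := h1
      _ = _ := by ring
  exact Nat.le_of_mul_le_mul_left h7 (by omega)

end ct

end Cfsg.Agent.H25.Czt
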