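import Mathlib
import Cfsg.Agent.H25_Czt
import Cfsg.Agent.H25_Sub8

/-!
H25_Czu: the bound for a subsection with cyclic quotient of the defect group.
-/

set_option autoImplicit false
set_option linter.unusedSectionVars false

open scoped ComplexConjugate

namespace Cfsg.Agent.H25.Czu

open Cfsg Cfsg.Agent.H3 Cfsg.Agent.H3.CharIrr Cfsg.Agent.H3.CharComplete Cfsg.Agent.H3.CharBasic
  Cfsg.Agent.H10.BlockLoc Cfsg.Agent.H10.BlockAlg Cfsg.Agent.H10.BlockIdem Cfsg.Agent.H10.Char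
  Cfsg.Agent.H10.BlockSMT Cfsg.Agent.H10.BlockSMT2 Cfsg.Agent.H10.BlockTrace Cfsg.Agent.H10.BlockDefect
  Cfsg.Agent.H10.BlockMain Cfsg.Agent.H10.BlockHZ Cfsg.Agent.H10.BlockOrth Cfsg.Agent.H10.BlockNormal
  Cfsg.Agent.H10.PPart Cfsg.Agent.H25.IndCong Cfsg.Agent.H25.Red
  Cfsg.Agent.H25.Sub Cfsg.Agent.H25.Sub2 Cfsg.Agent.H25.Sub3 Cfsg.Agent.H25.Sub5 Cfsg.Agent.H25.Sub7 Cfsg.Agent.H10.BlockKer
  Cfsg.Agent.H10.RegPart Cfsg.Agent.H10.BlockQuot Cfsg.Agent.H25.Dom Cfsg.Agent.H3.CharGal Cfsg.Agent.H25.Avg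
  Cfsg.Agent.H25.Czq Cfsg.Agent.H25.Czr Cfsg.Agent.H25.Czs Cfsg.Agent.H25.Czt

theorem card_map_mk {C : Type*} [Group C] [Finite C] {N D : Subgroup C} [hN : N.Normal] (hle : N ≤ D) :
    Nat.card (D.map (QuotientGroup.mk' N)) * Nat.card N = Nat.card D := by
  have h6 := Subgroup.card_eq_card_quotient_mul_card_subgroup ((QuotientGroup.mk' N).comp D.subtype).ker
  rw [Nat.card_congr (QuotientGroup.quotientKerEquivRange ((QuotientGroup.mk' N).comp D.subtype)).toEquiv,
    MonoidHom.range_comp, Subgroup.range_subtype] at h6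
  have h7 : ((QuotientGroup.mk' N).comp D.subtype).ker = N.subgroupOf D := by
    ext y
    rw [MonoidHom.mem_ker, Subgroup.mem_subgroupOf]
    exact QuotientGroup.eq_one_iff _
  rw [h7, Nat.card_congr (Subgroup.subgroupOfEquivOfLe hle).toEquiv] at h6
  exact h6.symm

section bound

variable {M : Ideal AlgInt} [hMax : M.IsMaximal] {p : ℕ} [hp : Fact p.Prime]
  {G : Type*} [Group G] [Fintype G] {z : G} [Fintype (Subgroup.centralizer ({z} : Set G))]
  [Fintype (IrrCharacter (Subgroup.centralizer ({z} : Set G)))]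
  [Fintype (IrrCharacter G)] {b : Set (IrrCharacter (Subgroup.centralizer ({z} : Set G)))}

theorem nn_bp (hM : IsPModular p M) (hb : IsPBlock M b) {χ : IrrCharacter G} (h : NN p z b χ χ ≠ 0) :
    ∃ y : Subgroup.centralizer ({z} : Set G), ¬ p ∣ orderOf y ∧ bp z b (χ : G → ℂ) y ≠ 0 := by
  classical
  by_contra hcon
  push Not at hcon
  apply h
  unfold NN
  have h1 := bp_adj hM hb χ χ
  rw [Finset.sum_eq_zero (fun y _ => by
    by_cases hy : p ∣ orderOf y
    · rw [if_pos hy]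
    · rw [if_neg hy, hcon y hy, zero_mul])] at h1
  have h2 := (mul_eq_zero.1 h1.symm).resolve_left (Nat.cast_ne_zero.2 Nat.card_pos.ne')
  rw [h2, mul_zero]

theorem nn_le (hM : IsPModular p M) (hz : ∃ k : ℕ, orderOf z = p ^ k) (hb : IsPBlock M b) (S : Finset (IrrCharacter G))
    (hS : ∀ χ ∈ S, NN p z b χ χ ≠ 0) : S.card ≤ p ^ blockDefect p b * blockRank p b := by
  classical
  have h := NC_herm hM hz hb
  have h2 := Herm.T_sum (NC_trace hM hz hb)
  have h3 : ∑ χ ∈ S, Herm.T (NC p z b) χ ≤ ∑ χ, Herm.T (NC p z b) χ :=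
    Finset.sum_le_sum_of_subset_of_nonneg (Finset.subset_univ _)
      (fun χ _ _ => h.T_nonneg (q_pos b) χ)
  rw [h2] at h3
  have h4 : (S.card : ℝ) ≤ ∑ χ ∈ S, Herm.T (NC p z b) χ := by
    have : (S.card : ℝ) = ∑ χ ∈ S, (1 : ℝ) := by rw [Finset.sum_const, nsmul_eq_mul, mul_one]
    rw [this]
    refine Finset.sum_le_sum fun χ hχ => h.one_le_T (q_pos b) χ ?_
    intro h0
    exact hS χ hχ (by rw [← NC_coe, h0]; rfl)
  exact_mod_cast h4.trans h3

/-- the bound -/
theorem bound (hM : IsPModular p M) (hz : ∃ k : ℕ, orderOf z = p ^ k) (hb : IsPBlock M b)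
    {D : Subgroup (Subgroup.centralizer ({z} : Set G))} (hD : IsDefectGroup p M b D)
    (hN : (Subgroup.zpowers (zz z)).Normal)
    (hcyc : IsCyclic (D.map (QuotientGroup.mk' (Subgroup.zpowers (zz z))))) (S : Finset (IrrCharacter G))
    (hS : ∀ χ ∈ S, NN p z b χ χ ≠ 0) : S.card ≤ Nat.card D := by
  classical
  haveI : CharP (KM M) p := charP_KM M hM
  haveI := hN
  haveI : Fintype (Subgroup.centralizer ({z} : Set G) ⧸ Subgroup.zpowers (zz z)) := Fintype.ofFinite _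
  haveI : Fintype (IrrCharacter (Subgroup.centralizer ({z} : Set G) ⧸ Subgroup.zpowers (zz z))) := Fintype.ofFinite _
  haveI : NeZero (orderOf z) := ⟨(orderOf_pos z).ne'⟩
  have hNp := zpN_pg (z := z) hz
  have hCe := zpN_cen (p := p) (z := z)
  have hle : Subgroup.zpowers (zz z) ≤ D := normal_le_defectGroup hM hb hD _ hNp
  have hcardN : Nat.card (Subgroup.zpowers (zz z)) = orderOf z := by
    rw [Nat.card_zpowers]
    exact (Subgroup.orderOf_coe (zz z)).symm
  obtain ⟨Bq, hBq, hsub, hdef⟩ := H25.Dom2.exists_dominated (Subgroup.zpowers (zz z)) hM hNp hb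
  obtain ⟨φ, hφ⟩ := block_nonempty hBq
  have h1 : Bq = Bb (Subgroup.zpowers (zz z)) b :=
    block_eq_of_mem hBq (Bb_isPBlock _ hM hNp hCe hb) hφ (hsub φ hφ)
  have h3 : IsDefectGroup p M Bq (D.map (QuotientGroup.mk' (Subgroup.zpowers (zz z)))) := (hdef _).2 ⟨D, hD, rfl⟩
  rw [h1] at h3 hBq
  have hcm := card_map_mk hle
  rw [hcardN] at hcm
  by_cases hbot : D.map (QuotientGroup.mk' (Subgroup.zpowers (zz z))) = ⊥
  · have h4 : Nat.card D = orderOf z := by rw [← hcm, hbot, Subgroup.card_bot, one_mul]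
    have h5 : D = Subgroup.zpowers (zz z) := (Subgroup.eq_of_le_of_card_ge hle (by rw [h4, hcardN])).symm
    have h6 : blockRank p b = 1 := central_rank_one hM hb hD (by
      rw [h5, Subgroup.zpowers_le, Subgroup.mem_center_iff]; exact zz_comm)
    have h7 := nn_le hM hz hb S hS
    rw [h6, mul_one, ← card_defectGroup hM hb hD] at h7
    exact h7
  · obtain ⟨X, Y, δ, ε, hcd, hX, hY, hXY⟩ := cyc_data hM hBq h3 hcyc hbot
    have h4 := ct hM hz hb hcd hX S (fun χ hχ => nn_bp hM hb (hS χ hχ))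
    refine h4.trans ?_
    rw [← hcm, ← hXY, mul_comm (X.card * Y.card + 1)]
    refine Nat.mul_le_mul_left _ ?_
    nlinarith

end bound

end Cfsg.Agent.H25.Czu
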