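import Mathlib
import Cfsg.Agent.H25_Czu

/-!
H25_Czv: blocks with abelian defect groups of small rank.
-/

set_option autoImplicit false
set_option linter.unusedSectionVars false

open scoped ComplexConjugate

namespace Cfsg.Agent.H25.Czv

open Cfsg Cfsg.Agent.H3 Cfsg.Agent.H3.CharIrr Cfsg.Agent.H3.CharComplete Cfsg.Agent.H3.CharBasic
  Cfsg.Agent.H10.BlockLoc Cfsg.Agent.H10.BlockAlg Cfsg.Agent.H10.BlockIdem Cfsg.Agent.H10.Char
  Cfsg.Agent.H10.BlockSMT Cfsg.Agent.H10.BlockSMT2 Cfsg.Agent.H10.BlockTrace Cfsg.Agent.H10.BlockDefect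
  Cfsg.Agent.H10.BlockMain Cfsg.Agent.H10.BlockHZ Cfsg.Agent.H10.BlockOrth Cfsg.Agent.H10.BlockNormal
  Cfsg.Agent.H10.PPart Cfsg.Agent.H25.IndCong Cfsg.Agent.H25.Red Cfsg.Agent.H25.KG
  Cfsg.Agent.H25.BPTr Cfsg.Agent.H25.BPMain Cfsg.Agent.H25.BPDef Cfsg.Agent.H25.Fus Cfsg.Agent.H25.Nilp
  Cfsg.Agent.H25.NilpAb Cfsg.Agent.H25.Rel Cfsg.Agent.H25.FMT Cfsg.Agent.H25.Cyk
  Cfsg.Agent.H25.Sub Cfsg.Agent.H25.Sub2 Cfsg.Agent.H25.Sub3 Cfsg.Agent.H25.Sub5 Cfsg.Agent.H25.Sub7 Cfsg.Agent.H10.BlockKer
  Cfsg.Agent.H10.RegPart Cfsg.Agent.H10.BlockQuot Cfsg.Agent.H25.Dom Cfsg.Agent.H25.AbSec Cfsg.Agent.H25.AbSec2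
  Cfsg.Agent.H25.Czq Cfsg.Agent.H25.Czs Cfsg.Agent.H25.Czt Cfsg.Agent.H25.Czu

theorem zpN_normal {G : Type*} [Group G] (z : G) : (Subgroup.zpowers (zz z)).Normal := by
  refine ⟨fun n hn g => ?_⟩
  have h3 : g * n = n * g := by
    obtain ⟨k, rfl⟩ := Subgroup.mem_zpowers_iff.1 hn
    exact ((show Commute g (zz z) from zz_comm g).zpow_right k).eq
  rw [h3, mul_inv_cancel_right]; exact hn

theorem Dbar_le {G : Type*} [Group G] {D C : Subgroup G} {N : Subgroup C} [hN : N.Normal] {T : Set G} (hDT : D = Subgroup.closure T)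
    (K : Subgroup (C ⧸ N)) (hK : ∀ t ∈ T, ∃ ht : t ∈ C, (QuotientGroup.mk (⟨t, ht⟩ : C) : C ⧸ N) ∈ K) :
    (D.subgroupOf C).map (QuotientGroup.mk' N) ≤ K := by
  have h1 : D ≤ (K.comap (QuotientGroup.mk' N)).map C.subtype := by
    rw [hDT, Subgroup.closure_le]
    intro t ht
    obtain ⟨htC, h2⟩ := hK t ht
    exact ⟨⟨t, htC⟩, h2, rfl⟩
  rintro _ ⟨x, hx, rfl⟩
  obtain ⟨y, hy, hyx⟩ := h1 (show (x : G) ∈ D from hx)
  have : y = x := Subtype.ext hyx
  rw [← this]
  exact hy

section main

variable {M : Ideal AlgInt} [hMax : M.IsMaximal] {p : ℕ} [hp : Fact p.Prime]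
  {G : Type*} [Group G] [Fintype G] {B : Set (IrrCharacter G)} {D : Subgroup G}

/-- the local block at an element of an abelian defect group -/
theorem exists_loc (hM : IsPModular p M) (hB : IsPBlock M B) (hBD : IsDefectGroup p M B D)
    (hab : ∀ x ∈ D, ∀ y ∈ D, x * y = y * x) {z : G} (hz : z ∈ D) :
    ∃ b : Set (IrrCharacter (Subgroup.centralizer ({z} : Set G))), IsPBlock M b ∧
      IsDefectGroup p M b (D.subgroupOf (Subgroup.centralizer ({z} : Set G))) ∧
      IsInducedBlock M (Subgroup.centralizer ({z} : Set G)) b B := by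
  classical
  haveI : CharP (KM M) p := charP_KM M hM
  obtain ⟨E, hP, htop⟩ := H25.STs.exists_max_of hM hB hBD
  have key : ∀ L : Subgroup G, L = Ce (Subgroup.zpowers z) → ∃ b : Set (IrrCharacter L), IsPBlock M b ∧
      IsDefectGroup p M b (D.subgroupOf L) ∧ IsInducedBlock M L b B := by
    rintro _ rfl
    haveI : Fintype (Ce (Subgroup.zpowers z)) := Fintype.ofFinite _
    obtain ⟨f, -, hle⟩ := le_exists hP.pg hP.be (Subgroup.zpowers_le.2 hz)
    have hf := (hle.pair hP.pg hP.be).2
    obtain ⟨b, hb, rfl⟩ := exists_ep hf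
    refine ⟨b, hb, (defectH_iff' hM hb (le_Ce_ab hab hle.le)).2 (dgh_ab hM hP htop hab hle), ?_⟩
    exact ((H25.BPInd.bpo_iff_induced hM).1 (bpo_iff.2 ⟨hB, hb, hP.down hle⟩)).2
  exact key _ (AbSec.Ce_zp z).symm

theorem le_cen (hab : ∀ x ∈ D, ∀ y ∈ D, x * y = y * x) {z : G} (hz : z ∈ D) : D ≤ Subgroup.centralizer ({z} : Set G) := by
  intro x hx
  rw [Subgroup.mem_centralizer_singleton_iff]
  exact hab x hx z hz

theorem maj_of (hM : IsPModular p M) (hB : IsPBlock M B) (hBD : IsDefectGroup p M B D)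
    (hab : ∀ x ∈ D, ∀ y ∈ D, x * y = y * x) {z : G} (hz : z ∈ D) {b : Set (IrrCharacter (Subgroup.centralizer ({z} : Set G)))}
    (hb : IsPBlock M b) (hbD : IsDefectGroup p M b (D.subgroupOf (Subgroup.centralizer ({z} : Set G)))) :
    blockDefect p b = blockDefect p B := by
  haveI : Fintype (Subgroup.centralizer ({z} : Set G)) := Fintype.ofFinite _
  have h1 := card_defectGroup hM hb hbD
  have h2 := card_defectGroup hM hB hBD
  rw [Nat.card_congr (Subgroup.subgroupOfEquivOfLe (le_cen hab hz)).toEquiv, h2] at h1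
  exact (Nat.pow_right_injective hp.out.two_le h1).symm

theorem pel (hM : IsPModular p M) (hB : IsPBlock M B) (hBD : IsDefectGroup p M B D) {z : G} (hz : z ∈ D) :
    ∃ k : ℕ, orderOf z = p ^ k := by
  have h2 := card_defectGroup hM hB hBD
  have h3 : orderOf z ∣ p ^ blockDefect p B := by
    rw [← h2]
    have := orderOf_dvd_natCard (⟨z, hz⟩ : D)
    rwa [← Subgroup.orderOf_coe] at this
  obtain ⟨k, -, hk⟩ := (Nat.dvd_prime_pow hp.out).1 h3
  exact ⟨k, hk⟩

/-- two generators -/
theorem k_le (hM : IsPModular p M) (hB : IsPBlock M B) (hBD : IsDefectGroup p M B D)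
    (hab : ∀ x ∈ D, ∀ y ∈ D, x * y = y * x) {z w : G} (hgen : D = Subgroup.closure {z, w}) : Nat.card B ≤ Nat.card D := by
  classical
  have hzD : z ∈ D := by rw [hgen]; exact Subgroup.subset_closure (Set.mem_insert _ _)
  have hwD : w ∈ D := by rw [hgen]; exact Subgroup.subset_closure (Set.mem_insert_of_mem _ rfl)
  obtain ⟨b, hb, hbD, hind⟩ := exists_loc hM hB hBD hab hzD
  haveI : Fintype (Subgroup.centralizer ({z} : Set G)) := Fintype.ofFinite _
  haveI : Fintype (IrrCharacter (Subgroup.centralizer ({z} : Set G))) := Fintype.ofFinite _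
  haveI : Fintype (IrrCharacter G) := Fintype.ofFinite _
  haveI := zpN_normal z
  have hmaj := maj_of hM hB hBD hab hzD hb hbD
  have hz := pel hM hB hBD hzD
  have hwC := le_cen hab hzD hwD
  have hcyc : IsCyclic ((D.subgroupOf (Subgroup.centralizer ({z} : Set G))).map (QuotientGroup.mk' (Subgroup.zpowers (zz z)))) := by
    have h1 : (D.subgroupOf (Subgroup.centralizer ({z} : Set G))).map (QuotientGroup.mk' (Subgroup.zpowers (zz z))) =
        Subgroup.zpowers (QuotientGroup.mk (⟨w, hwC⟩ : Subgroup.centralizer ({z} : Set G))) := by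
      apply le_antisymm
      · refine Dbar_le hgen _ ?_
        rintro t (rfl | rfl)
        · refine ⟨le_cen hab hzD hzD, ?_⟩
          have h2 : (QuotientGroup.mk (⟨t, le_cen hab hzD hzD⟩ : Subgroup.centralizer ({t} : Set G)) :
              Subgroup.centralizer ({t} : Set G) ⧸ Subgroup.zpowers (zz t)) = 1 :=
            (QuotientGroup.eq_one_iff _).2 (Subgroup.mem_zpowers (zz t))
          rw [h2]; exact Subgroup.one_mem _
        · exact ⟨hwC, Subgroup.mem_zpowers _⟩
      · rw [Subgroup.zpowers_le]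
        exact ⟨⟨w, hwC⟩, hwD, rfl⟩
    rw [h1]; infer_instance
  have h1 := bound hM hz hb hbD (zpN_normal z) hcyc (Finset.univ.filter fun χ => χ ∈ B) (fun χ hχ =>
    maj_diag_ne hM hz hind hmaj (Finset.mem_filter.1 hχ).2)
  rw [Nat.card_congr (Subgroup.subgroupOfEquivOfLe (le_cen hab hzD)).toEquiv] at h1
  rw [Nat.card_eq_fintype_card, Fintype.card_subtype]
  exact h1

theorem rank_le_card (hM : IsPModular p M) (hB : IsPBlock M B) : blockRank p B ≤ Nat.card B := by
  rw [card_eq hM hB]; exact Nat.le_add_right _ _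

/-- three generators -/
theorem k_le3 (hM : IsPModular p M) (hB : IsPBlock M B) (hBD : IsDefectGroup p M B D)
    (hab : ∀ x ∈ D, ∀ y ∈ D, x * y = y * x) {z w v : G} (hgen : D = Subgroup.closure {z, w, v}) :
    Nat.card B * orderOf z ≤ Nat.card D * Nat.card D := by
  classical
  have hzD : z ∈ D := by rw [hgen]; exact Subgroup.subset_closure (Set.mem_insert _ _)
  have hwD : w ∈ D := by rw [hgen]; exact Subgroup.subset_closure (Set.mem_insert_of_mem _ (Set.mem_insert _ _))
  have hvD : v ∈ D := by rw [hgen]; exact Subgroup.subset_closure (Set.mem_insert_of_mem _ (Set.mem_insert_of_mem _ rfl))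
  obtain ⟨b, hb, hbD, hind⟩ := exists_loc hM hB hBD hab hzD
  haveI : Fintype (Subgroup.centralizer ({z} : Set G)) := Fintype.ofFinite _
  haveI : Fintype (IrrCharacter (Subgroup.centralizer ({z} : Set G))) := Fintype.ofFinite _
  haveI : Fintype (IrrCharacter G) := Fintype.ofFinite _
  haveI := zpN_normal z
  haveI : Fintype (Subgroup.centralizer ({z} : Set G) ⧸ Subgroup.zpowers (zz z)) := Fintype.ofFinite _
  haveI : Fintype (IrrCharacter (Subgroup.centralizer ({z} : Set G) ⧸ Subgroup.zpowers (zz z))) := Fintype.ofFinite _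
  have hmaj := maj_of hM hB hBD hab hzD hb hbD
  have hz := pel hM hB hBD hzD
  have hwC := le_cen hab hzD hwD
  have hvC := le_cen hab hzD hvD
  have hNp := zpN_pg (z := z) hz
  have hCe := zpN_cen (p := p) (z := z)
  have hle : Subgroup.zpowers (zz z) ≤ D.subgroupOf (Subgroup.centralizer ({z} : Set G)) := normal_le_defectGroup hM hb hbD _ hNp
  have hcardN : Nat.card (Subgroup.zpowers (zz z)) = orderOf z := by
    rw [Nat.card_zpowers]
    exact (Subgroup.orderOf_coe (zz z)).symm
  obtain ⟨Bq, hBq, hsub, hdef⟩ := H25.Dom2.exists_dominated (Subgroup.zpowers (zz z)) hM hNp hb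
  obtain ⟨φ, hφ⟩ := block_nonempty hBq
  have h1 : Bq = Bb (Subgroup.zpowers (zz z)) b :=
    block_eq_of_mem hBq (Bb_isPBlock _ hM hNp hCe hb) hφ (hsub φ hφ)
  have h3 := (hdef _).2 ⟨_, hbD, rfl⟩
  have hcm := card_map_mk hle
  rw [hcardN, Nat.card_congr (Subgroup.subgroupOfEquivOfLe (le_cen hab hzD)).toEquiv] at hcm
  have h4 : (D.subgroupOf (Subgroup.centralizer ({z} : Set G))).map (QuotientGroup.mk' (Subgroup.zpowers (zz z))) =
      Subgroup.closure {(QuotientGroup.mk (⟨w, hwC⟩ : Subgroup.centralizer ({z} : Set G)) :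
        Subgroup.centralizer ({z} : Set G) ⧸ Subgroup.zpowers (zz z)), QuotientGroup.mk (⟨v, hvC⟩ : Subgroup.centralizer ({z} : Set G))} := by
    apply le_antisymm
    · refine Dbar_le hgen _ ?_
      rintro t (rfl | rfl | rfl)
      · refine ⟨le_cen hab hzD hzD, ?_⟩
        have h2 : (QuotientGroup.mk (⟨t, le_cen hab hzD hzD⟩ : Subgroup.centralizer ({t} : Set G)) :
            Subgroup.centralizer ({t} : Set G) ⧸ Subgroup.zpowers (zz t)) = 1 :=
          (QuotientGroup.eq_one_iff _).2 (Subgroup.mem_zpowers (zz t))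
        rw [h2]; exact Subgroup.one_mem _
      · exact ⟨hwC, Subgroup.subset_closure (Set.mem_insert _ _)⟩
      · exact ⟨hvC, Subgroup.subset_closure (Set.mem_insert_of_mem _ rfl)⟩
    · rw [Subgroup.closure_le]
      rintro x (rfl | rfl)
      · exact ⟨⟨w, hwC⟩, hwD, rfl⟩
      · exact ⟨⟨v, hvC⟩, hvD, rfl⟩
  have h5 := k_le hM hBq h3 (by
    rintro _ ⟨x, hx, rfl⟩ _ ⟨y, hy, rfl⟩
    rw [← map_mul, ← map_mul]
    congr 1
    exact Subtype.ext (hab x hx y hy)) h4
  have h6 : blockRank p b ≤ Nat.card ((D.subgroupOf (Subgroup.centralizer ({z} : Set G))).map (QuotientGroup.mk' (Subgroup.zpowers (zz z)))) := by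
    rw [rank_Bb (Subgroup.zpowers (zz z)) hM hNp hCe hb, ← h1]
    exact (rank_le_card hM hBq).trans h5
  have h7 := card_le_major hM hz hind hmaj
  rw [← card_defectGroup hM hB hBD] at h7
  calc Nat.card B * orderOf z ≤ (Nat.card D * blockRank p b) * orderOf z := Nat.mul_le_mul_right _ h7
    _ ≤ (Nat.card D * Nat.card ((D.subgroupOf (Subgroup.centralizer ({z} : Set G))).map (QuotientGroup.mk' (Subgroup.zpowers (zz z))))) * orderOf z :=
      Nat.mul_le_mul_right _ (Nat.mul_le_mul_left _ h6)
    _ = Nat.card D * Nat.card D := by rw [mul_assoc, hcm]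

end main

section fin

theorem gen_of {G : Type*} [Group G] {D : Subgroup G} {S : Set D} (h : Subgroup.closure S = ⊤) :
    D = Subgroup.closure ((fun x : D => (x : G)) '' S) := by
  have h1 := congrArg (Subgroup.map D.subtype) h
  rw [MonoidHom.map_closure, ← MonoidHom.range_eq_map, Subgroup.range_subtype] at h1
  exact h1.symm

theorem s4697 {G : Type*} [Group G] [Fintype G] (p : ℕ) [hp : Fact p.Prime] (M : Ideal AlgInt) (hM : IsPModular p M)
    (B : Set (IrrCharacter G)) (hB : IsPBlock M B) (D : Subgroup G) (hBD : IsDefectGroup p M B D)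
    (hab : IsMulCommutative D) (d : ℕ) (hDd : Nat.card D = p ^ d) :
    (Group.rank D = 2 → Nat.card B ≤ p ^ d) ∧ (Group.rank D = 3 → Nat.card B ^ 3 ≤ p ^ (5 * d)) := by
  classical
  haveI := hM.2.1
  have hab' : ∀ x ∈ D, ∀ y ∈ D, x * y = y * x := fun x hx y hy =>
    congrArg Subtype.val (hab.is_comm.comm (⟨x, hx⟩ : D) ⟨y, hy⟩)
  obtain ⟨S, hS, hcl⟩ := Group.rank_spec D
  have hgen := gen_of hcl
  constructor
  · intro h2
    rw [h2] at hS
    obtain ⟨z, w, -, rfl⟩ := Finset.card_eq_two.1 hS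
    rw [← hDd]
    refine k_le hM hB hBD hab' (z := z) (w := w) ?_
    rw [Finset.coe_insert, Finset.coe_singleton, Set.image_insert_eq, Set.image_singleton] at hgen
    exact hgen
  · intro h3
    rw [h3] at hS
    have hne : S.Nonempty := Finset.card_pos.1 (by omega)
    obtain ⟨z, hzS, hmax⟩ := Finset.exists_max_image S (fun x => orderOf x) hne
    have hS2 : (S.erase z).card = 2 := by rw [Finset.card_erase_of_mem hzS, hS]
    obtain ⟨w, v, -, hwv⟩ := Finset.card_eq_two.1 hS2
    have hSz : S = {z, w, v} := by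
      rw [← Finset.insert_erase hzS, hwv]
    have hexp : ∀ g : D, g ^ orderOf z = 1 := by
      have h4 : Subgroup.closure (S : Set D) ≤ ({ carrier := {g | g ^ orderOf z = 1}
                                                  mul_mem' := fun {a b} ha hb => by
                                                    have hc : Commute a b := hab.is_comm.comm a b
                                                    show (a * b) ^ orderOf z = 1
                                                    rw [hc.mul_pow, show a ^ orderOf z = 1 from ha, show b ^ orderOf z = 1 from hb, one_mul]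
                                                  one_mem' := one_pow _
                                                  inv_mem' := fun {a} ha => by
                                                    show a⁻¹ ^ orderOf z = 1
                                                    rw [inv_pow, show a ^ orderOf z = 1 from ha, inv_one] } : Subgroup D) := by
        rw [Subgroup.closure_le]
        intro s hs
        show s ^ orderOf z = 1
        rw [← orderOf_dvd_iff_pow_eq_one]
        have h5 := hmax s hs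
        have pz : ∀ t : D, ∃ k : ℕ, orderOf t = p ^ k := by
          intro t
          obtain ⟨k, hk⟩ := pel hM hB hBD t.2
          exact ⟨k, by rw [← hk, Subgroup.orderOf_coe]⟩
        obtain ⟨k, hk⟩ := pz s
        obtain ⟨l, hl⟩ := pz z
        rw [hk, hl] at h5 ⊢
        exact pow_dvd_pow p ((Nat.pow_le_pow_iff_right hp.out.one_lt).1 h5)
      intro g
      have h5 : g ∈ Subgroup.closure (S : Set D) := by rw [hcl]; exact Subgroup.mem_top g
      exact h4 h5
    have hcard : Nat.card D ∣ orderOf z ^ 3 := by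
      letI : CommGroup D := { (inferInstance : Group D) with mul_comm := hab.is_comm.comm }
      have := card_dvd_exponent_pow_rank' (G := D) (n := orderOf z) hexp
      rw [h3] at this
      exact this
    have hle : Nat.card D ≤ orderOf z ^ 3 := Nat.le_of_dvd (pow_pos (orderOf_pos z) 3) hcard
    have h6 := k_le3 hM hB hBD hab' (z := (z : G)) (w := w) (v := v) (by
      rw [hSz] at hgen
      rw [Finset.coe_insert, Finset.coe_insert, Finset.coe_singleton, Set.image_insert_eq, Set.image_insert_eq, Set.image_singleton] at hgen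
      exact hgen)
    rw [Subgroup.orderOf_coe] at h6
    have h7 : Nat.card B ^ 3 * orderOf z ^ 3 ≤ (Nat.card D * Nat.card D) ^ 3 := by
      rw [← mul_pow]; exact Nat.pow_le_pow_left h6 3
    have h8 : Nat.card B ^ 3 * Nat.card D ≤ Nat.card D ^ 5 * Nat.card D := by
      calc Nat.card B ^ 3 * Nat.card D ≤ Nat.card B ^ 3 * orderOf z ^ 3 := Nat.mul_le_mul_left _ hle
        _ ≤ (Nat.card D * Nat.card D) ^ 3 := h7
        _ = _ := by ring
    have h9 := Nat.le_of_mul_le_mul_right h8 Nat.card_pos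
    rw [hDd] at h9
    rw [mul_comm 5 d, pow_mul]
    exact h9

end fin

end Cfsg.Agent.H25.Czv
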