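import Mathlib
import Cfsg.Agent.H25_Czv

/-!
H25_Czw: characters of degree prime to p in the principal block.
-/

set_option autoImplicit false
set_option linter.unusedSectionVars false

open scoped ComplexConjugate

namespace Cfsg.Agent.H25.Czw

open Cfsg Cfsg.Agent.H3 Cfsg.Agent.H3.CharIrr Cfsg.Agent.H3.CharComplete Cfsg.Agent.H3.CharBasic
  Cfsg.Agent.H10.BlockLoc Cfsg.Agent.H10.BlockAlg Cfsg.Agent.H10.BlockIdem Cfsg.Agent.H10.Char
  Cfsg.Agent.H10.BlockSMT Cfsg.Agent.H10.BlockSMT2 Cfsg.Agent.H10.BlockTrace Cfsg.Agent.H10.BlockDefect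
  Cfsg.Agent.H10.BlockMain Cfsg.Agent.H10.BlockHZ Cfsg.Agent.H10.BlockOrth Cfsg.Agent.H10.BlockNormal
  Cfsg.Agent.H10.PPart Cfsg.Agent.H25.IndCong Cfsg.Agent.H25.Red Cfsg.Agent.H25.KG
  Cfsg.Agent.H25.Sub Cfsg.Agent.H25.Sub2 Cfsg.Agent.H25.Sub3 Cfsg.Agent.H25.Sub5 Cfsg.Agent.H25.Sub7 Cfsg.Agent.H10.BlockKer
  Cfsg.Agent.H10.RegPart Cfsg.Agent.H10.BlockQuot Cfsg.Agent.H25.Dom Cfsg.Agent.H25.AbSec Cfsg.Agent.H25.AbSec2
  Cfsg.Agent.H25.Czq Cfsg.Agent.H25.Czs Cfsg.Agent.H25.Czt Cfsg.Agent.H25.Czu Cfsg.Agent.H25.Czv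

section prin

variable {M : Ideal AlgInt} [hMax : M.IsMaximal] {p : ℕ} [hp : Fact p.Prime]
  {G : Type*} [Group G] [Fintype G]

theorem prin_ind (hM : IsPModular p M) {x : G} (hx : ∃ k : ℕ, orderOf x = p ^ k) :
    IsInducedBlock M (Subgroup.centralizer ({x} : Set G)) (principalBlock M (Subgroup.centralizer ({x} : Set G)))
      (principalBlock M G) := by
  classical
  have hQ : IsPGroup p (Subgroup.zpowers x) := by
    obtain ⟨k, hk⟩ := hx
    exact IsPGroup.of_card (n := k) (by rw [Nat.card_zpowers, hk])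
  have key : ∀ L : Subgroup G, L = Subgroup.centralizer (Subgroup.zpowers x : Set G) →
      IsInducedBlock M L (principalBlock M L) (principalBlock M G) := by
    rintro _ rfl
    haveI : Fintype (Subgroup.centralizer (Subgroup.zpowers x : Set G)) := Fintype.ofFinite _
    exact ((BPInd.bpo_iff_induced hM).1 ((BPInd.third hM hQ principal_isPBlock).2 rfl)).2
  exact key _ (AbSec.Ce_zp x).symm

theorem main0 (hM : IsPModular p M) {x : G} (hx : ∃ k : ℕ, orderOf x = p ^ k)
    (h : (x ≠ 1 ∧ (Nat.card (Subgroup.centralizer ({x} : Set G))).factorization p ≤ 2) ∨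
      (Nat.card (Subgroup.centralizer ({x} : Set G))).factorization p ≤ 1) :
    Nat.card {χ : IrrCharacter G // χ ∈ principalBlock M G ∧ ¬ p ∣ charDegree (χ : G → ℂ)} ≤ p ^ 2 := by
  classical
  haveI : Fintype (Subgroup.centralizer ({x} : Set G)) := Fintype.ofFinite _
  haveI : Fintype (IrrCharacter (Subgroup.centralizer ({x} : Set G))) := Fintype.ofFinite _
  haveI : Fintype (IrrCharacter G) := Fintype.ofFinite _
  haveI := zpN_normal x
  haveI : Fintype (Subgroup.centralizer ({x} : Set G) ⧸ Subgroup.zpowers (zz x)) := Fintype.ofFinite _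
  haveI : Fintype (IrrCharacter (Subgroup.centralizer ({x} : Set G) ⧸ Subgroup.zpowers (zz x))) := Fintype.ofFinite _
  have hb : IsPBlock M (principalBlock M (Subgroup.centralizer ({x} : Set G))) := principal_isPBlock
  obtain ⟨P⟩ : Nonempty (Sylow p (Subgroup.centralizer ({x} : Set G))) := inferInstance
  have hD : IsDefectGroup p M (principalBlock M (Subgroup.centralizer ({x} : Set G))) (P : Subgroup _) :=
    (BPInd.defect_principal hM _).2 ⟨P, rfl⟩
  have hcard : Nat.card (P : Subgroup (Subgroup.centralizer ({x} : Set G))) =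
      p ^ (Nat.card (Subgroup.centralizer ({x} : Set G))).factorization p := Sylow.card_eq_multiplicity P
  have hNp := zpN_pg (z := x) hx
  have hle : Subgroup.zpowers (zz x) ≤ (P : Subgroup (Subgroup.centralizer ({x} : Set G))) := normal_le_defectGroup hM hb hD _ hNp
  have hcm := card_map_mk hle
  have hcardN : Nat.card (Subgroup.zpowers (zz x)) = orderOf x := by
    rw [Nat.card_zpowers]
    exact (Subgroup.orderOf_coe (zz x)).symm
  rw [hcardN] at hcm
  have hdvd : Nat.card ((P : Subgroup (Subgroup.centralizer ({x} : Set G))).map (QuotientGroup.mk' (Subgroup.zpowers (zz x)))) ∣ p := by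
    obtain ⟨k, hk⟩ := hx
    have h1 : Nat.card ((P : Subgroup (Subgroup.centralizer ({x} : Set G))).map (QuotientGroup.mk' (Subgroup.zpowers (zz x)))) ∣
        p ^ (Nat.card (Subgroup.centralizer ({x} : Set G))).factorization p := by
      rw [← hcard, ← hcm]; exact Dvd.intro _ rfl
    obtain ⟨j, -, hj⟩ := (Nat.dvd_prime_pow hp.out).1 h1
    have h2 : j + k = (Nat.card (Subgroup.centralizer ({x} : Set G))).factorization p := by
      rw [hj, hk, hcard, ← pow_add] at hcm
      exact Nat.pow_right_injective hp.out.two_le hcm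
    have h3 : j ≤ 1 := by
      rcases h with ⟨hx1, h⟩ | h
      · have hk0 : k ≠ 0 := by
          rintro rfl
          rw [pow_zero, orderOf_eq_one_iff] at hk
          exact hx1 hk
        omega
      · omega
    rw [hj]
    calc p ^ j ∣ p ^ 1 := pow_dvd_pow p h3
      _ = p := pow_one p
  have hcyc : IsCyclic ((P : Subgroup (Subgroup.centralizer ({x} : Set G))).map (QuotientGroup.mk' (Subgroup.zpowers (zz x)))) := by
    rcases (Nat.dvd_prime hp.out).1 hdvd with h1 | h1
    · haveI := (Nat.card_eq_one_iff_unique.1 h1).1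
      infer_instance
    · exact isCyclic_of_prime_card h1
  have hS := bound hM hx hb hD (zpN_normal x) hcyc
    (Finset.univ.filter fun χ => χ ∈ principalBlock M G ∧ ¬ p ∣ charDegree (χ : G → ℂ)) (fun χ hχ => by
      obtain ⟨hχB, hχd⟩ := (Finset.mem_filter.1 hχ).2
      have hh : blockHeight p (principalBlock M G) (χ : G → ℂ) = 0 := by
        unfold blockHeight
        rw [Nat.factorization_eq_zero_of_not_dvd hχd]
        simp
      have h1 := NC_ne hM hx (prin_ind hM hx) hχB hh hχB hh
      intro h0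
      exact h1 (Subtype.ext (by rw [NC_coe, h0]; rfl)))
  rw [Nat.card_eq_fintype_card, Fintype.card_subtype]
  refine hS.trans ?_
  rw [hcard]
  refine Nat.pow_le_pow_right hp.out.pos ?_
  rcases h with ⟨-, h⟩ | h <;> omega

end prin

theorem s4588 {G : Type*} [Group G] [Fintype G] (p : ℕ) [hp : Fact p.Prime] (M : Ideal AlgInt) (hM : IsPModular p M)
    (hx : ∃ x : G, (∃ k : ℕ, orderOf x = p ^ k) ∧ (Nat.card (Subgroup.centralizer ({x} : Set G))).factorization p ≤ 2) :
    Nat.card {χ : IrrCharacter G // χ ∈ principalBlock M G ∧ ¬ p ∣ charDegree (χ : G → ℂ)} ≤ p ^ 2 := by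
  classical
  haveI := hM.2.1
  obtain ⟨x, hxp, hc⟩ := hx
  by_cases hx1 : x = 1
  · by_cases hc1 : (Nat.card (Subgroup.centralizer ({x} : Set G))).factorization p ≤ 1
    · exact main0 hM hxp (Or.inr hc1)
    · have hdvd : p ∣ Nat.card G := by
        have h1 : p ∣ Nat.card (Subgroup.centralizer ({x} : Set G)) := by
          by_contra hno
          rw [Nat.factorization_eq_zero_of_not_dvd hno] at hc1
          omega
        exact h1.trans (Subgroup.card_subgroup_dvd_card _)
      obtain ⟨y, hy⟩ := exists_prime_orderOf_dvd_card' p hdvd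
      refine main0 hM (x := y) ⟨1, by rw [pow_one]; exact hy⟩ (Or.inl ⟨?_, ?_⟩)
      · rintro rfl
        rw [orderOf_one] at hy
        exact hp.out.one_lt.ne hy
      · refine le_trans ?_ hc
        have h2 : Nat.card (Subgroup.centralizer ({x} : Set G)) = Nat.card G := by
          have : Subgroup.centralizer ({x} : Set G) = ⊤ := by
            rw [eq_top_iff]
            intro g _
            rw [Subgroup.mem_centralizer_singleton_iff, hx1, mul_one, one_mul]
          rw [this, Subgroup.card_top]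
        rw [h2]
        exact (Nat.factorization_le_iff_dvd Nat.card_pos.ne' Nat.card_pos.ne').2 (Subgroup.card_subgroup_dvd_card _) p
  · exact main0 hM hxp (Or.inl ⟨hx1, hc⟩)

end Cfsg.Agent.H25.Czw
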