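import Cfsg.Agent.H4_V4Fin
import Cfsg.Agent.H4_B0Sec
set_option autoImplicit false
set_option maxHeartbeats 1000000

namespace Cfsg.Agent.H25.DihCnt
open Cfsg Cfsg.Agent.H10.PPart
open scoped ComplexConjugate

/-- `C = O ⋊ P` with `O` of odd order and `P` a 2-group, all inside `G`. -/
structure Cmp {G : Type*} [Group G] (C O P : Subgroup G) : Prop where
  odd : ¬ 2 ∣ Nat.card O
  two : IsPGroup 2 P
  leO : O ≤ C
  leP : P ≤ C
  nrm : ∀ c ∈ C, ∀ w ∈ O, c * w * c⁻¹ ∈ O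
  cov : ∀ c ∈ C, ∃ w ∈ O, ∃ s ∈ P, c = w * s

section
variable {G : Type*} [Group G] [Fintype G] {C O P : Subgroup G}

theorem Cmp.inf (h : Cmp C O P) : O ⊓ P = ⊥ := by
  rw [Subgroup.eq_bot_iff_forall]
  intro x hx
  obtain ⟨k, hk⟩ := (IsPGroup.iff_orderOf.1 h.two) ⟨x, hx.2⟩
  rw [Subgroup.orderOf_mk] at hk
  have h1 : orderOf x ∣ Nat.card O := by
    have := orderOf_dvd_natCard (⟨x, hx.1⟩ : O)
    rwa [Subgroup.orderOf_mk] at this
  rcases Nat.eq_zero_or_pos k with h0 | h0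
  · rw [h0, pow_zero, orderOf_eq_one_iff] at hk
    exact hk
  · exfalso
    apply h.odd
    refine dvd_trans ?_ h1
    rw [hk]
    exact dvd_pow_self 2 h0.ne'

theorem Cmp.inj (h : Cmp C O P) {w w' s s' : G} (hw : w ∈ O) (hw' : w' ∈ O) (hs : s ∈ P)
    (hs' : s' ∈ P) (he : w * s = w' * s') : w = w' ∧ s = s' := by
  have h1 : w'⁻¹ * w ∈ O ⊓ P := by
    refine ⟨O.mul_mem (O.inv_mem hw') hw, ?_⟩
    have : w'⁻¹ * w = s' * s⁻¹ := by
      rw [eq_mul_inv_iff_mul_eq, mul_assoc, he, inv_mul_cancel_left]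
    rw [this]
    exact P.mul_mem hs' (P.inv_mem hs)
  rw [h.inf, Subgroup.mem_bot, inv_mul_eq_one] at h1
  subst h1
  exact ⟨rfl, mul_left_cancel he⟩

open Classical in
/-- number of involutions in `O t` -/
noncomputable def cnt (O : Subgroup G) (t : G) : ℕ :=
  (Finset.univ.filter (fun v : G => orderOf v = 2 ∧ v * t⁻¹ ∈ O)).card

open Classical in
/-- number of ordered pairs of involutions with product `g` -/
noncomputable def F (g : G) : ℕ :=
  (Finset.univ.filter (fun u : G => orderOf u = 2 ∧ orderOf (u⁻¹ * g) = 2)).card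

theorem F_conj (g x : G) : F (x * g * x⁻¹) = F g := by
  classical
  unfold F
  refine Finset.card_bij' (fun u _ => x⁻¹ * u * x) (fun u _ => x * u * x⁻¹) ?_ ?_ ?_ ?_
  · intro u hu
    rw [Finset.mem_filter] at hu ⊢
    refine ⟨Finset.mem_univ _, ?_, ?_⟩
    · have : orderOf (x⁻¹ * u * x⁻¹⁻¹) = orderOf u := orderOf_conj _ _
      rw [inv_inv] at this
      rw [this]; exact hu.2.1
    · have h1 : (x⁻¹ * u * x)⁻¹ * g = x⁻¹ * (u⁻¹ * (x * g * x⁻¹)) * x⁻¹⁻¹ := by group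
      rw [h1, orderOf_conj]; exact hu.2.2
  · intro u hu
    rw [Finset.mem_filter] at hu ⊢
    refine ⟨Finset.mem_univ _, ?_, ?_⟩
    · rw [orderOf_conj]; exact hu.2.1
    · have h1 : (x * u * x⁻¹)⁻¹ * (x * g * x⁻¹) = x * (u⁻¹ * g) * x⁻¹ := by group
      rw [h1, orderOf_conj]; exact hu.2.2
  · intro u _; show x * (x⁻¹ * u * x) * x⁻¹ = u; group
  · intro u _; show x⁻¹ * (x * u * x⁻¹) * x = u; group

theorem cnt_mul {w t : G} (hw : w ∈ O) (ht : ∀ v ∈ O, t⁻¹ * v * t ∈ O) : cnt O (w * t) = cnt O t := by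
  classical
  unfold cnt
  congr 1
  ext v
  simp only [Finset.mem_filter, Finset.mem_univ, true_and]
  have : v * (w * t)⁻¹ = v * t⁻¹ * w⁻¹ := by group
  rw [this, Subgroup.mul_mem_cancel_right _ (O.inv_mem hw)]

theorem Cmp.cnt_one (h : Cmp C O P) : cnt O 1 = 0 := by
  classical
  unfold cnt
  rw [Finset.card_eq_zero, Finset.filter_eq_empty_iff]
  rintro v - ⟨hv, hv'⟩
  rw [inv_one, mul_one] at hv'
  apply h.odd
  have := orderOf_dvd_natCard (⟨v, hv'⟩ : O)
  rwa [Subgroup.orderOf_mk, hv] at this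

theorem Cmp.cnt_sq (h : Cmp C O P) {t : G} (ht : t ∈ P) (h2 : t * t ≠ 1) : cnt O t = 0 := by
  classical
  unfold cnt
  rw [Finset.card_eq_zero, Finset.filter_eq_empty_iff]
  rintro v - ⟨hv, hv'⟩
  have hvv : v * v = 1 := by
    have := pow_orderOf_eq_one v
    rwa [hv, pow_two] at this
  -- v = w t
  set w := v * t⁻¹ with hw
  have hvt : v = w * t := by rw [hw, inv_mul_cancel_right]
  have h3 : w * (t * w * t⁻¹) * (t * t) = 1 * 1 := by
    rw [hvt] at hvv
    rw [one_mul, ← hvv]; group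
  have := (h.inj (O.mul_mem hv' (h.nrm t (h.leP ht) w hv')) O.one_mem (P.mul_mem ht ht) P.one_mem h3).2
  exact h2 this

/-- for an involution `t` normalizing the odd-order `O`, the involutions in `O t` are the `O`-conjugates. -/
theorem cnt_mul_card (hodd : ¬ 2 ∣ Nat.card O) {t : G} (h2 : orderOf t = 2)
    (hn : ∀ w ∈ O, t * w * t⁻¹ ∈ O) :
    cnt O t * Nat.card ↥(O ⊓ Subgroup.centralizer ({t} : Set G)) = Nat.card O := by
  classical
  have htt : t * t = 1 := by
    have := pow_orderOf_eq_one t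
    rwa [h2, pow_two] at this
  have hti : t⁻¹ = t := by rw [inv_eq_iff_mul_eq_one, htt]
  -- surjectivity
  have hsurj : ∀ v : G, orderOf v = 2 → v * t⁻¹ ∈ O → ∃ w ∈ O, w * t * w⁻¹ = v := by
    intro v hv hv'
    have hvv : v * v = 1 := by
      have := pow_orderOf_eq_one v
      rwa [hv, pow_two] at this
    set w := v * t⁻¹ with hw
    have hvt : v = w * t := by rw [hw, inv_mul_cancel_right]
    have hinv : t * w * t⁻¹ = w⁻¹ := by
      rw [hvt] at hvv
      rw [eq_inv_iff_mul_eq_one, hti]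
      have h5 : t * w * t * w = (w⁻¹ * (w * t * (w * t)) * w) := by group
      rw [h5, hvv]; group
    -- square root
    have hod : Odd (orderOf w) := by
      rw [← Nat.not_even_iff_odd, even_iff_two_dvd]
      intro h5
      apply hodd
      have h6 := orderOf_dvd_natCard (⟨w, hv'⟩ : O)
      rw [Subgroup.orderOf_mk] at h6
      exact h5.trans h6
    obtain ⟨m, hm⟩ := hod
    refine ⟨w ^ (m + 1), O.pow_mem hv' _, ?_⟩
    have h6 : w ^ (m + 1) * w ^ (m + 1) = w := by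
      rw [← pow_add, show m + 1 + (m + 1) = orderOf w + 1 by omega, pow_succ, pow_orderOf_eq_one,
        one_mul]
    have h7 : t * w ^ (m + 1) * t⁻¹ = (w ^ (m + 1))⁻¹ := by
      rw [← conj_pow, hinv, inv_pow]
    have h8 : t * (w ^ (m + 1))⁻¹ * t⁻¹ = w ^ (m + 1) := by
      have := congrArg (·⁻¹) h7
      simp only [mul_inv_rev, inv_inv] at this
      rw [mul_assoc]; exact this
    have h9 : t * (w ^ (m + 1))⁻¹ = w ^ (m + 1) * t := by
      rw [← mul_inv_eq_iff_eq_mul]; exact h8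
    calc w ^ (m + 1) * t * (w ^ (m + 1))⁻¹ = w ^ (m + 1) * (t * (w ^ (m + 1))⁻¹) := by group
      _ = w ^ (m + 1) * w ^ (m + 1) * t := by rw [h9]; group
      _ = v := by rw [h6, hvt]
  -- fibre counting
  have hmaps : ∀ w ∈ (Finset.univ : Finset O), (w : G) * t * (w : G)⁻¹ ∈
      Finset.univ.filter (fun v : G => orderOf v = 2 ∧ v * t⁻¹ ∈ O) := by
    intro w _
    rw [Finset.mem_filter]
    refine ⟨Finset.mem_univ _, ?_, ?_⟩
    · rw [orderOf_conj]; exact h2
    · have : (w : G) * t * (w : G)⁻¹ * t⁻¹ = (w : G) * (t * (w : G)⁻¹ * t⁻¹) := by group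
      rw [this]
      exact O.mul_mem w.2 (hn _ (O.inv_mem w.2))
  have hcard := Finset.card_eq_sum_card_fiberwise hmaps
  rw [Finset.card_univ, ← Nat.card_eq_fintype_card] at hcard
  rw [hcard]
  unfold cnt
  rw [← smul_eq_mul, ← Finset.sum_const]
  apply Finset.sum_congr rfl
  intro v hv
  rw [Finset.mem_filter] at hv
  obtain ⟨w₀, hw₀, hv₀⟩ := hsurj v hv.2.1 hv.2.2
  rw [Nat.card_eq_fintype_card, ← Finset.card_univ]
  refine Finset.card_bij' (fun (c : ↥(O ⊓ Subgroup.centralizer ({t} : Set G))) _ =>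
    (⟨w₀ * (c : G), O.mul_mem hw₀ c.2.1⟩ : O))
    (fun (w : O) hw => (⟨w₀⁻¹ * (w : G), ⟨O.mul_mem (O.inv_mem hw₀) w.2, ?_⟩⟩ :
      ↥(O ⊓ Subgroup.centralizer ({t} : Set G)))) ?_ ?_ ?_ ?_
  · rw [Finset.mem_filter] at hw
    show w₀⁻¹ * (w : G) ∈ Subgroup.centralizer ({t} : Set G)
    rw [Subgroup.mem_centralizer_singleton_iff]
    have h5 : (w : G) * t * (w : G)⁻¹ = w₀ * t * w₀⁻¹ := by rw [hw.2, hv₀]
    have h6 : (w : G) * t = w₀ * t * w₀⁻¹ * w := by rw [← h5]; group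
    rw [mul_assoc, h6]; group
  · intro c _
    rw [Finset.mem_filter]
    refine ⟨Finset.mem_univ _, ?_⟩
    have hc := Subgroup.mem_centralizer_singleton_iff.1 c.2.2
    show w₀ * (c : G) * t * (w₀ * (c : G))⁻¹ = v
    rw [← hv₀, mul_assoc w₀, hc]; group
  · intro w _
    exact Finset.mem_univ _
  · intro c _
    apply Subtype.ext; simp
  · intro w _
    apply Subtype.ext; simp

/-- centralizers in `C = O ⋊ P` of elements of `P`. -/
theorem Cmp.card_centralizer (h : Cmp C O P) {t : G} (ht : t ∈ P) :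
    Nat.card ↥(C ⊓ Subgroup.centralizer ({t} : Set G)) =
      Nat.card ↥(O ⊓ Subgroup.centralizer ({t} : Set G)) *
      Nat.card ↥(P ⊓ Subgroup.centralizer ({t} : Set G)) := by
  rw [← Nat.card_prod]
  symm
  apply Nat.card_eq_of_bijective (fun x : ↥(O ⊓ Subgroup.centralizer ({t} : Set G)) ×
    ↥(P ⊓ Subgroup.centralizer ({t} : Set G)) =>
      (⟨(x.1 : G) * (x.2 : G), ⟨C.mul_mem (h.leO x.1.2.1) (h.leP x.2.2.1),
        (Subgroup.centralizer ({t} : Set G)).mul_mem x.1.2.2 x.2.2.2⟩⟩ :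
        ↥(C ⊓ Subgroup.centralizer ({t} : Set G))))
  constructor
  · rintro ⟨w, s⟩ ⟨w', s'⟩ he
    have := h.inj w.2.1 w'.2.1 s.2.1 s'.2.1 (congrArg Subtype.val he)
    exact Prod.ext (Subtype.ext this.1) (Subtype.ext this.2)
  · rintro ⟨c, hc, hct⟩
    obtain ⟨w, hw, s, hs, rfl⟩ := h.cov c hc
    have hct' := Subgroup.mem_centralizer_singleton_iff.1 hct
    -- w s t = t w s = (t w t⁻¹) t s
    have h1 : w * (s * t) = (t * w * t⁻¹) * (t * s) := by
      rw [← mul_assoc, hct']; group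
    have h2 := h.inj hw (h.nrm t (h.leP ht) w hw) (P.mul_mem hs ht) (P.mul_mem ht hs) h1
    refine ⟨(⟨w, hw, ?_⟩, ⟨s, hs, ?_⟩), rfl⟩
    · show w ∈ Subgroup.centralizer ({t} : Set G)
      rw [Subgroup.mem_centralizer_singleton_iff]
      have := h2.1
      rw [eq_mul_inv_iff_mul_eq] at this
      exact this
    · show s ∈ Subgroup.centralizer ({t} : Set G)
      rw [Subgroup.mem_centralizer_singleton_iff]
      exact h2.2

theorem Cmp.card_eq (h : Cmp C O P) : Nat.card C = Nat.card O * Nat.card P := by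
  have := h.card_centralizer P.one_mem
  have h1 : Subgroup.centralizer ({1} : Set G) = ⊤ := by
    rw [Subgroup.eq_top_iff']
    intro x
    rw [Subgroup.mem_centralizer_singleton_iff]; simp
  rwa [h1, inf_top_eq, inf_top_eq, inf_top_eq] at this

/-- the main count -/
theorem Cmp.sum_F (h : Cmp C O P) {z : G} (hz : z ∈ P)
    (hC : ∀ w ∈ O, ∀ u : G, orderOf u = 2 → orderOf (u⁻¹ * (w * z)) = 2 → u ∈ C) [Fintype O]
    [Fintype P] :
    ∑ w : O, F ((w : G) * z) = ∑ s : P, cnt O (s : G) * cnt O ((s : G)⁻¹ * z) := by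
  classical
  unfold F cnt
  rw [← Finset.card_sigma]
  have hr : ∑ s : P, (Finset.univ.filter (fun v : G => orderOf v = 2 ∧ v * (s : G)⁻¹ ∈ O)).card *
      (Finset.univ.filter (fun v : G => orderOf v = 2 ∧ v * ((s : G)⁻¹ * z)⁻¹ ∈ O)).card =
      (Finset.univ.sigma (fun s : P =>
        (Finset.univ.filter (fun v : G => orderOf v = 2 ∧ v * (s : G)⁻¹ ∈ O)) ×ˢ
      (Finset.univ.filter (fun v : G => orderOf v = 2 ∧ v * ((s : G)⁻¹ * z)⁻¹ ∈ O)))).card := by
    rw [Finset.card_sigma]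
    apply Finset.sum_congr rfl
    intro s _
    rw [Finset.card_product]
  rw [hr]
  symm
  refine Finset.card_bij (fun (x : (_ : P) × G × G) hx => (⟨⟨x.2.1 * x.2.2 * z⁻¹, ?_⟩, x.2.1⟩ :
    (_ : O) × G)) ?_ ?_ ?_
  · obtain ⟨s, v₁, v₂⟩ := x
    simp only [Finset.mem_sigma, Finset.mem_product, Finset.mem_filter, Finset.mem_univ,
      true_and] at hx
    obtain ⟨⟨h1, h2⟩, h3, h4⟩ := hx
    show v₁ * v₂ * z⁻¹ ∈ O
    have : v₁ * v₂ * z⁻¹ = v₁ * (s : G)⁻¹ * ((s : G) * (v₂ * ((s : G)⁻¹ * z)⁻¹) * (s : G)⁻¹) := by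
      group
    rw [this]
    exact O.mul_mem h2 (h.nrm _ (h.leP s.2) _ h4)
  · rintro ⟨s, v₁, v₂⟩ hx
    simp only [Finset.mem_sigma, Finset.mem_product, Finset.mem_filter, Finset.mem_univ,
      true_and] at hx ⊢
    refine ⟨hx.1.1, ?_⟩
    have : v₁⁻¹ * (v₁ * v₂ * z⁻¹ * z) = v₂ := by group
    rw [this]
    exact hx.2.1
  · rintro ⟨s, v₁, v₂⟩ hx ⟨s', v₁', v₂'⟩ hx' he
    simp only [Finset.mem_sigma, Finset.mem_product, Finset.mem_filter, Finset.mem_univ,
      true_and] at hx hx'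
    simp only [Sigma.mk.injEq] at he
    obtain ⟨he1, he2⟩ := he
    have he2' : v₁ = v₁' := eq_of_heq he2
    subst he2'
    have he3 : v₁ * v₂ * z⁻¹ = v₁ * v₂' * z⁻¹ := congrArg Subtype.val he1
    have he4 : v₂ = v₂' := by
      have := mul_right_cancel he3
      exact mul_left_cancel this
    subst he4
    have h5 : (v₁ * (s : G)⁻¹) * (s : G) = (v₁ * (s' : G)⁻¹) * (s' : G) := by group
    have h6 := (h.inj hx.1.2 hx'.1.2 s.2 s'.2 h5).2
    have h7 : s = s' := Subtype.ext h6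
    subst h7
    rfl
  · rintro ⟨w, u⟩ hx
    simp only [Finset.mem_sigma, Finset.mem_filter, Finset.mem_univ, true_and] at hx
    obtain ⟨w', hw', s, hs, hus⟩ := h.cov u (hC w w.2 u hx.1 hx.2)
    refine ⟨⟨⟨s, hs⟩, u, u⁻¹ * (w * z)⟩, ?_, ?_⟩
    · simp only [Finset.mem_sigma, Finset.mem_product, Finset.mem_filter, Finset.mem_univ,
        true_and]
      refine ⟨⟨hx.1, ?_⟩, hx.2, ?_⟩
      · rw [hus, mul_inv_cancel_right]; exact hw'
      · have : u⁻¹ * (↑w * z) * (s⁻¹ * z)⁻¹ = s⁻¹ * (w'⁻¹ * w) * s⁻¹⁻¹ := by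
          rw [hus]; group
        rw [this]
        exact h.nrm _ (C.inv_mem (h.leP hs)) _ (O.mul_mem (O.inv_mem hw') w.2)
    · have : u * (u⁻¹ * (↑w * z)) * z⁻¹ = w := by group
      simp only [this]

theorem Cmp.of_compl {C P : Subgroup G} (hP : IsPGroup 2 P) (hPC : P ≤ C) (K : Subgroup C)
    (hK : K.Normal) (hodd : ¬ 2 ∣ Nat.card K) (hidx : K.index = Nat.card P) :
    Cmp C (K.map C.subtype) P := by
  have hcard : Nat.card (K.map C.subtype) = Nat.card K :=
    Nat.card_congr (K.equivMapOfInjective C.subtype C.subtype_injective).symm.toEquiv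
  have hinf : ∀ x : C, x ∈ K → (x : G) ∈ P → x = 1 := by
    intro x hx hx'
    obtain ⟨k, hk⟩ := (IsPGroup.iff_orderOf.1 hP) ⟨(x : G), hx'⟩
    rw [Subgroup.orderOf_mk] at hk
    have h1 : orderOf (x : G) ∣ Nat.card K := by
      have := orderOf_dvd_natCard (⟨x, hx⟩ : K)
      rw [Subgroup.orderOf_mk] at this
      rwa [Subgroup.orderOf_coe]
    rcases Nat.eq_zero_or_pos k with h0 | h0
    · rw [h0, pow_zero, orderOf_eq_one_iff] at hk
      exact Subtype.ext hk
    · exfalso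
      apply hodd
      refine dvd_trans ?_ h1
      rw [hk]
      exact dvd_pow_self 2 h0.ne'
  refine ⟨by rwa [hcard], hP, ?_, hPC, ?_, ?_⟩
  · rintro _ ⟨x, _, rfl⟩; exact x.2
  · rintro c hc _ ⟨x, hx, rfl⟩
    exact ⟨⟨c, hc⟩ * x * ⟨c, hc⟩⁻¹, hK.conj_mem x hx ⟨c, hc⟩, rfl⟩
  · -- covering by counting
    have hbij : Function.Bijective (fun x : K × P => (⟨(x.1 : C) * (x.2 : G),
        C.mul_mem (x.1 : C).2 (hPC x.2.2)⟩ : C)) := by
      rw [Nat.bijective_iff_injective_and_card]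
      constructor
      · rintro ⟨w, s⟩ ⟨w', s'⟩ he
        have he' : ((w : C) : G) * (s : G) = ((w' : C) : G) * (s' : G) := congrArg Subtype.val he
        have h1 : (w' : C)⁻¹ * (w : C) = 1 := by
          apply hinf _ (K.mul_mem (K.inv_mem w'.2) w.2)
          have : (((w' : C)⁻¹ * (w : C) : C) : G) = (s' : G) * (s : G)⁻¹ := by
            show ((w' : C) : G)⁻¹ * ((w : C) : G) = _
            rw [eq_mul_inv_iff_mul_eq, mul_assoc, he', inv_mul_cancel_left]
          rw [this]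
          exact P.mul_mem s'.2 (P.inv_mem s.2)
        rw [inv_mul_eq_one] at h1
        have h2 : w = w' := Subtype.ext h1.symm
        subst h2
        exact Prod.ext rfl (Subtype.ext (mul_left_cancel he'))
      · rw [Nat.card_prod, ← hidx, Subgroup.card_mul_index]
    intro c hc
    obtain ⟨⟨w, s⟩, hws⟩ := hbij.2 ⟨c, hc⟩
    exact ⟨((w : C) : G), ⟨w, w.2, rfl⟩, s, s.2, (congrArg Subtype.val hws).symm⟩

theorem Cmp.pow_eq (h : Cmp C O P) {z : G} (hz : z ∈ P) : ∃ r : ℕ, z ^ r = z ∧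
    ∀ w ∈ O, w ^ r = 1 := by
  obtain ⟨k, hk⟩ := (IsPGroup.iff_orderOf.1 h.two) ⟨z, hz⟩
  rw [Subgroup.orderOf_mk] at hk
  have hco : Nat.Coprime (Nat.card O) (orderOf z) := by
    rw [hk]
    exact ((Nat.Prime.coprime_iff_not_dvd Nat.prime_two).2 h.odd).symm.pow_right k
  obtain ⟨r, hr1, hr2⟩ := Nat.chineseRemainder hco 0 1
  refine ⟨r, ?_, ?_⟩
  · conv_rhs => rw [← pow_one z]
    rwa [pow_eq_pow_iff_modEq]
  · intro w hw
    rw [← orderOf_dvd_iff_pow_eq_one]
    have h1 := orderOf_dvd_natCard (⟨w, hw⟩ : O)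
    rw [Subgroup.orderOf_mk] at h1
    exact h1.trans ((Nat.modEq_zero_iff_dvd).1 hr1)

theorem Cmp.avg (h : Cmp C O P) {z : G} (hz : z ∈ P) {R : Type*} [CommSemiring R] (f : G → R)
    (hf : ∀ g x, f (x * g * x⁻¹) = f g) [Fintype O] {D : Subgroup G}
    (hD : D = O ⊓ Subgroup.centralizer ({z} : Set G)) [Fintype D] :
    (Nat.card O : R) * ∑ w : D, f ((w : G) * z) =
      (Nat.card D : R) * ∑ w : O, f ((w : G) * z) := by
  classical
  obtain ⟨r, hr1, hr2⟩ := h.pow_eq hz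
  have hDO : ∀ w ∈ D, w ∈ O := fun w hw => by rw [hD] at hw; exact hw.1
  have hDcc : ∀ w ∈ D, w ∈ Subgroup.centralizer ({z} : Set G) := fun w hw => by
    rw [hD] at hw; exact hw.2
  have hDc : ∀ w : D, (w : G) * z = z * w := fun w =>
    Subgroup.mem_centralizer_singleton_iff.1 (hDcc _ w.2)
  -- the map
  let Ψ : O × D → O := fun x => ⟨(x.1 : G) * (x.2 : G) * (z * (x.1 : G)⁻¹ * z⁻¹),
    O.mul_mem (O.mul_mem x.1.2 (hDO _ x.2.2)) (h.nrm z (h.leP hz) _ (O.inv_mem x.1.2))⟩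
  have hΨ : ∀ x : O × D, ((Ψ x : O) : G) * z = (x.1 : G) * ((x.2 : G) * z) * (x.1 : G)⁻¹ := by
    intro x
    show (x.1 : G) * (x.2 : G) * (z * (x.1 : G)⁻¹ * z⁻¹) * z = _
    group
  have hpw : ∀ x : O × D, (((Ψ x : O) : G) * z) ^ r = (x.1 : G) * z * (x.1 : G)⁻¹ := by
    intro x
    rw [hΨ, conj_pow]
    congr 2
    rw [(show Commute (x.2 : G) z from hDc x.2).mul_pow, hr2 _ (hDO _ x.2.2), hr1, one_mul]
  -- fibres
  have hfib : ∀ y : O, (Finset.univ.filter (fun x : O × D => Ψ x = y)).card ≤ Nat.card D := by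
    intro y
    rcases Finset.eq_empty_or_nonempty (Finset.univ.filter (fun x : O × D => Ψ x = y)) with
      h0 | ⟨x₀, hx₀⟩
    · rw [h0]; simp
    rw [Finset.mem_filter] at hx₀
    rw [Nat.card_eq_fintype_card, ← Finset.card_univ]
    have hmem : ∀ x : O × D, Ψ x = y → (x₀.1 : G)⁻¹ * (x.1 : G) ∈ D := by
      intro x hx
      have hD' : ∀ w : G, w ∈ O ∧ w ∈ Subgroup.centralizer ({z} : Set G) → w ∈ D := by
        intro w hw; rw [hD]; exact hw
      refine hD' _ ⟨O.mul_mem (O.inv_mem x₀.1.2) x.1.2, ?_⟩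
      show (x₀.1 : G)⁻¹ * (x.1 : G) ∈ Subgroup.centralizer ({z} : Set G)
      rw [Subgroup.mem_centralizer_singleton_iff]
      have h1 := hpw x
      have h2 := hpw x₀
      rw [hx] at h1
      rw [hx₀.2] at h2
      have h3 : (x.1 : G) * z * (x.1 : G)⁻¹ = (x₀.1 : G) * z * (x₀.1 : G)⁻¹ := by
        rw [← h1, h2]
      have h4 : (x.1 : G) * z = (x₀.1 : G) * z * (x₀.1 : G)⁻¹ * (x.1 : G) := by
        rw [← h3]; group
      rw [mul_assoc, h4]; group
    refine Finset.card_le_card_of_injOn (fun x : O × D => if hx : Ψ x = y then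
      (⟨(x₀.1 : G)⁻¹ * (x.1 : G), hmem x hx⟩ : D) else 1) (fun _ _ => Finset.mem_univ _) ?_
    intro x hx x' hx' he
    rw [Finset.mem_coe, Finset.mem_filter] at hx hx'
    simp only [hx.2, hx'.2, dif_pos] at he
    have h1 : (x.1 : G) = x'.1 := mul_left_cancel (congrArg Subtype.val he)
    have h2 : ((Ψ x : O) : G) * z = ((Ψ x' : O) : G) * z := by rw [hx.2, hx'.2]
    rw [hΨ, hΨ, h1] at h2
    have h3 : (x.2 : G) = x'.2 := mul_right_cancel (mul_left_cancel (mul_right_cancel h2))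
    exact Prod.ext (Subtype.ext h1) (Subtype.ext h3)
  have htot : ∑ y : O, (Finset.univ.filter (fun x : O × D => Ψ x = y)).card =
      ∑ y : O, Nat.card D := by
    rw [← Finset.card_eq_sum_card_fiberwise (fun x _ => Finset.mem_univ (Ψ x)), Finset.card_univ,
      Fintype.card_prod, Finset.sum_const, Finset.card_univ, smul_eq_mul,
      Nat.card_eq_fintype_card]
  have hfib' := (Finset.sum_eq_sum_iff_of_le (fun y _ => hfib y)).1 htot
  have h1 : ∑ x : O × D, f (((Ψ x : O) : G) * z) =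
      (Nat.card O : R) * ∑ w : D, f ((w : G) * z) := by
    rw [Fintype.sum_prod_type]
    simp only [hΨ, hf]
    rw [Finset.sum_const, Finset.card_univ, nsmul_eq_mul, Nat.card_eq_fintype_card]
  rw [← h1, ← Finset.sum_fiberwise (g := Ψ) (s := Finset.univ), Finset.mul_sum]
  apply Finset.sum_congr rfl
  intro y _
  rw [Finset.sum_congr rfl (g := fun _ => f ((y : G) * z)) (fun x hx => by
    rw [(Finset.mem_filter.1 hx).2]), Finset.sum_const, hfib' y (Finset.mem_univ _),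
    nsmul_eq_mul]

open Classical in
theorem pair_card2 (x g : G) (hone : ∀ s t : G, orderOf s = 2 → orderOf t = 2 → IsConj s t)
    (hx : orderOf x = 2) :
    (Finset.univ.filter (fun q : G × G => q.1 * x * q.1⁻¹ * (q.2 * x * q.2⁻¹) = g)).card =
      Nat.card (Subgroup.centralizer ({x} : Set G)) ^ 2 * F g := by
  rw [H4.V4Fin.pair_card, pow_two, mul_assoc]
  congr 1
  have hiff : ∀ y : G, IsConj x y ↔ orderOf y = 2 := by
    intro y
    refine ⟨fun h => ?_, fun h => hone _ _ hx h⟩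
    obtain ⟨c, hc⟩ := isConj_iff.1 h
    rw [← hc, orderOf_conj, hx]
  have hmaps : ∀ q ∈ Finset.univ.filter (fun q : G => IsConj x ((q * x * q⁻¹)⁻¹ * g)),
      q * x * q⁻¹ ∈ Finset.univ.filter (fun u : G => orderOf u = 2 ∧ orderOf (u⁻¹ * g) = 2) := by
    intro q hq
    rw [Finset.mem_filter] at hq ⊢
    exact ⟨Finset.mem_univ _, by rw [orderOf_conj, hx], (hiff _).1 hq.2⟩
  rw [Finset.card_eq_sum_card_fiberwise hmaps]
  unfold F
  rw [mul_comm, ← smul_eq_mul, ← Finset.sum_const]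
  apply Finset.sum_congr rfl
  intro u hu
  rw [Finset.mem_filter] at hu
  have := H4.V4Fin.fiber_card x u
  rw [if_pos ((hiff u).2 hu.2.1)] at this
  rw [← this]
  congr 1
  ext q
  simp only [Finset.mem_filter, Finset.mem_univ, true_and]
  constructor
  · exact fun h => h.2
  · intro h
    refine ⟨?_, h⟩
    rw [h]; exact (hiff _).2 hu.2.2

/-- the section count in terms of `O` -/
theorem Cmp.block_count {M : Ideal AlgInt} (hM : IsPModular 2 M)
    (hone : ∀ s t : G, orderOf s = 2 → orderOf t = 2 → IsConj s t) {J : G} (hJ : orderOf J = 2)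
    (h : Cmp C O P) {z : G} (hz : z ∈ P) (hzC : Subgroup.centralizer ({z} : Set G) ≤ C)
    [Fintype O] :
    (Nat.card (Subgroup.centralizer ({J} : Set G)) : ℂ) ^ 2 * ((∑ w : O, F ((w : G) * z) : ℕ) : ℂ) =
      (Nat.card G : ℂ) * (Nat.card O : ℂ) *
        ∑ᶠ χ ∈ principalBlock M G, (χ : G → ℂ) J * (χ : G → ℂ) J * conj ((χ : G → ℂ) z) /
          (χ : G → ℂ) 1 := by
  classical
  haveI : Fintype (IrrCharacter G) := Fintype.ofFinite _
  haveI : Fintype P := Fintype.ofFinite _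
  set Cz := Subgroup.centralizer ({z} : Set G) with hCz
  set D := O ⊓ Cz with hD
  haveI : Fintype D := Fintype.ofFinite _
  set K : Subgroup Cz := O.subgroupOf Cz with hKdef
  haveI : Fintype K := Fintype.ofFinite _
  -- order of z
  obtain ⟨k, hk⟩ := (IsPGroup.iff_orderOf.1 h.two) ⟨z, hz⟩
  rw [Subgroup.orderOf_mk] at hk
  let e : K ≃ D := ⟨fun x => ⟨((x : Cz) : G), ⟨x.2, (x : Cz).2⟩⟩,
    fun x => ⟨⟨(x : G), x.2.2⟩, x.2.1⟩, fun _ => rfl, fun _ => rfl⟩
  have hKD : Nat.card K = Nat.card D := Nat.card_congr e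
  have hDO : Nat.card D ∣ Nat.card O := Subgroup.card_dvd_of_le inf_le_left
  have hKn : K.Normal := by
    refine ⟨fun x hx c => ?_⟩
    exact h.nrm _ (hzC c.2) _ hx
  have hKodd : ¬ 2 ∣ Nat.card K := by
    rw [hKD]; exact fun h5 => h.odd (h5.trans hDO)
  have hcc : Nat.card Cz = Nat.card K * Nat.card ↥(P ⊓ Cz) := by
    rw [hKD, ← h.card_centralizer hz, inf_eq_right.2 hzC]
  have hKidx : K.index = Nat.card ↥(P ⊓ Cz) := by
    have h1 := K.card_mul_index
    rw [hcc] at h1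
    exact Nat.eq_of_mul_eq_mul_left Nat.card_pos h1
  have hidx : ∃ k : ℕ, K.index = 2 ^ k := by
    rw [hKidx]
    have : IsPGroup 2 ↥(P ⊓ Cz) := h.two.to_le inf_le_left
    exact this.exists_card_eq
  have key := H4.B0Sec.section_count hM ⟨k, hk⟩ hKn hKodd hidx J J
  simp only [pair_card2 J _ hone hJ] at key
  -- left side
  have hl : (∑ k : K, ((Nat.card (Subgroup.centralizer ({J} : Set G)) ^ 2 *
      F (((k : Cz) : G) * z) : ℕ) : ℂ)) =
      (Nat.card (Subgroup.centralizer ({J} : Set G)) : ℂ) ^ 2 *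
        ∑ w : D, (F ((w : G) * z) : ℂ) := by
    rw [Finset.mul_sum, ← e.sum_comp]
    apply Finset.sum_congr rfl
    intro x _
    push_cast
    rfl
  rw [hl] at key
  have havg := h.avg hz (fun g => (F g : ℂ)) (fun g x => by rw [F_conj]) hD
  have hD0 : (Nat.card D : ℂ) ≠ 0 := Nat.cast_ne_zero.2 Nat.card_pos.ne'
  have hO0 : (Nat.card O : ℂ) ≠ 0 := Nat.cast_ne_zero.2 Nat.card_pos.ne'
  rw [hKD] at key
  push_cast
  apply mul_left_cancel₀ hD0
  calc (Nat.card D : ℂ) * ((Nat.card (Subgroup.centralizer ({J} : Set G)) : ℂ) ^ 2 *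
      ∑ w : O, (F ((w : G) * z) : ℂ)) =
      (Nat.card (Subgroup.centralizer ({J} : Set G)) : ℂ) ^ 2 * ((Nat.card D : ℂ) *
      ∑ w : O, (F ((w : G) * z) : ℂ)) := by ring
    _ = (Nat.card O : ℂ) * ((Nat.card (Subgroup.centralizer ({J} : Set G)) : ℂ) ^ 2 *
      ∑ w : D, (F ((w : G) * z) : ℂ)) := by rw [← havg]; ring
    _ = _ := by rw [key]; ring

/-- if `J` is a power of `z`, the pairs of involutions with product in `O z` lie in `C(J)`. -/
theorem Cmp.mem_of_F (h : Cmp C O P) {J : G} (hJ : orderOf J = 2)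
    (hC : C = Subgroup.centralizer ({J} : Set G)) {z : G} (hz : z ∈ P)
    (hJz : ∃ k : ℕ, z ^ k = J) :
    ∀ w ∈ O, ∀ u : G, orderOf u = 2 → orderOf (u⁻¹ * (w * z)) = 2 → u ∈ C := by
  intro w hw u hu hv
  have huu : u * u = 1 := by
    have := pow_orderOf_eq_one u
    rwa [hu, pow_two] at this
  have hui : u⁻¹ = u := by rw [inv_eq_iff_mul_eq_one, huu]
  have hvv : (u⁻¹ * (w * z)) * (u⁻¹ * (w * z)) = 1 := by
    have := pow_orderOf_eq_one (u⁻¹ * (w * z))
    rwa [hv, pow_two] at this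
  set x := w * z with hx
  -- u inverts x
  have hinv : u * x * u⁻¹ = x⁻¹ := by
    rw [hui] at hvv ⊢
    rw [eq_inv_iff_mul_eq_one, mul_assoc]
    exact hvv
  -- J is a power of x
  obtain ⟨m, hm⟩ := hJz
  have hxJ : ∃ j : ℕ, x ^ j = J := by
    -- x^m ∈ O J ; raise to the power |O|
    have hmod : ∀ i : ℕ, ∃ v ∈ O, x ^ i = v * z ^ i := by
      intro i
      induction i with
      | zero => exact ⟨1, O.one_mem, by simp⟩
      | succ i ih =>
        obtain ⟨v, hv, hvi⟩ := ih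
        refine ⟨v * (z ^ i * w * (z ^ i)⁻¹), O.mul_mem hv
          (h.nrm _ (h.leP (P.pow_mem hz i)) w hw), ?_⟩
        rw [pow_succ, hvi, hx, pow_succ]; group
    obtain ⟨v, hv, hvm⟩ := hmod m
    rw [hm] at hvm
    have hcomm : Commute v J := by
      have := h.leO hv
      rw [hC, Subgroup.mem_centralizer_singleton_iff] at this
      exact this
    have hodd : Odd (Nat.card O) := by
      rw [← Nat.not_even_iff_odd, even_iff_two_dvd]; exact h.odd
    refine ⟨m * Nat.card O, ?_⟩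
    rw [pow_mul, hvm, hcomm.mul_pow]
    have h1 : v ^ Nat.card O = 1 := by
      have := pow_card_eq_one' (x := (⟨v, hv⟩ : O))
      exact congrArg Subtype.val this
    obtain ⟨i, hi⟩ := hodd
    have h2 : J ^ Nat.card O = J := by
      rw [hi, pow_succ, pow_mul, ← hJ, pow_orderOf_eq_one, one_pow, one_mul]
    rw [h1, h2, one_mul]
  obtain ⟨j, hj⟩ := hxJ
  rw [hC, Subgroup.mem_centralizer_singleton_iff]
  have h3 : u * J * u⁻¹ = J⁻¹ := by
    rw [← hj, ← conj_pow, hinv, inv_pow]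
  have h4 : J⁻¹ = J := by
    rw [inv_eq_iff_mul_eq_one, ← pow_two, ← hJ, pow_orderOf_eq_one]
  rw [h4, mul_inv_eq_iff_eq_mul] at h3
  exact h3

end

end Cfsg.Agent.H25.DihCnt
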