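import Cfsg.Agent.H25_DihCnt
import Cfsg.Agent.H2_Fusion3
set_option autoImplicit false
set_option maxHeartbeats 1000000

namespace Cfsg.Agent.H25.DihGrp
open Cfsg Cfsg.Agent.H10.PPart Cfsg.Agent.H25.DihCnt

/-- `P` is dihedral of order `2 ^ n`, generated by `σ` of order `2 ^ (n-1)` and the involution `τ`. -/
structure DP {G : Type*} [Group G] (P : Subgroup G) (n : ℕ) (σ τ : G) : Prop where
  hn : 3 ≤ n
  hσ : σ ∈ P
  hτ : τ ∈ P
  hσo : orderOf σ = 2 ^ (n - 1)
  hτ2 : τ * τ = 1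
  hrel : τ * σ * τ⁻¹ = σ⁻¹
  hcov : ∀ x ∈ P, x ∈ Subgroup.zpowers σ ∨ x * τ ∈ Subgroup.zpowers σ

section
variable {G : Type*} [Group G] {P : Subgroup G} {n : ℕ} {σ τ : G}

theorem DP.of_closure (hn : 3 ≤ n) (hσ : σ ∈ P) (hτ : τ ∈ P) (hσo : orderOf σ = 2 ^ (n - 1))
    (hτ2 : τ * τ = 1) (hrel : τ * σ * τ⁻¹ = σ⁻¹)
    (hgen : Subgroup.closure ({σ, τ} : Set G) = P) : DP P n σ τ := by
  refine ⟨hn, hσ, hτ, hσo, hτ2, hrel, ?_⟩
  have hti : τ⁻¹ = τ := by rw [inv_eq_iff_mul_eq_one, hτ2]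
  have hz : ∀ y ∈ Subgroup.zpowers σ, τ * y * τ ∈ Subgroup.zpowers σ := by
    rintro _ ⟨k, rfl⟩
    refine ⟨-k, ?_⟩
    show σ ^ (-k) = τ * σ ^ k * τ
    have h1 : τ * σ ^ k * τ⁻¹ = (τ * σ * τ⁻¹) ^ k := by rw [conj_zpow]
    rw [hrel, hti, inv_zpow] at h1
    rw [h1, zpow_neg]
  intro x hx
  rw [← hgen] at hx
  induction hx using Subgroup.closure_induction with
  | mem x hx =>
    rcases hx with rfl | hx
    · exact Or.inl (Subgroup.mem_zpowers _)
    · rw [Set.mem_singleton_iff] at hx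
      rw [hx]; exact Or.inr (by rw [hτ2]; exact Subgroup.one_mem _)
  | one => exact Or.inl (Subgroup.one_mem _)
  | mul x y _ _ hx hy =>
    rcases hx with hx | hx <;> rcases hy with hy | hy
    · exact Or.inl (Subgroup.mul_mem _ hx hy)
    · right; rw [mul_assoc]; exact Subgroup.mul_mem _ hx hy
    · right
      have : x * y * τ = (x * τ) * (τ * y * τ) := by
        calc x * y * τ = x * 1 * y * τ := by rw [mul_one]
          _ = x * (τ * τ) * y * τ := by rw [hτ2]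
          _ = _ := by group
      rw [this]; exact Subgroup.mul_mem _ hx (hz y hy)
    · left
      have : x * y = (x * τ) * (τ * (y * τ) * τ) := by
        calc x * y = x * (τ * τ) * y * (τ * τ) := by rw [hτ2]; group
          _ = _ := by group
      rw [this]; exact Subgroup.mul_mem _ hx (hz _ hy)
  | inv x _ hx =>
    rcases hx with hx | hx
    · exact Or.inl (Subgroup.inv_mem _ hx)
    · right
      have : x⁻¹ * τ = τ * (x * τ)⁻¹ * τ := by
        rw [mul_inv_rev, hti, ← mul_assoc, hτ2, one_mul]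
      rw [this]; exact hz _ (Subgroup.inv_mem _ hx)

theorem DP.of_equiv [Finite G] (hn : 3 ≤ n) (e : P ≃* DihedralGroup (2 ^ (n - 1))) (hσ : σ ∈ P)
    (hσo : orderOf σ = 2 ^ (n - 1)) : ∃ τ : G, DP P n σ τ := by
  haveI : NeZero (2 ^ (n - 1)) := ⟨by positivity⟩
  have hL : 4 ≤ 2 ^ (n - 1) := by
    calc 4 = 2 ^ 2 := by norm_num
      _ ≤ 2 ^ (n - 1) := Nat.pow_le_pow_right (by norm_num) (by omega)
  set s : P := ⟨σ, hσ⟩ with hs
  have hso : orderOf (e s) = 2 ^ (n - 1) := by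
    rw [MulEquiv.orderOf_eq, Subgroup.orderOf_mk, hσo]
  obtain ⟨i, hi⟩ : ∃ i, e s = DihedralGroup.r i := by
    rcases h : e s with i | i
    · exact ⟨i, rfl⟩
    · rw [h, DihedralGroup.orderOf_sr] at hso
      omega
  have hrot : ∀ j, DihedralGroup.r j ∈ Subgroup.zpowers (e s) := by
    have h1 : ((Subgroup.zpowers (e s) : Subgroup (DihedralGroup (2 ^ (n - 1)))) : Set _) =
        Set.range (fun j : ZMod (2 ^ (n - 1)) => (DihedralGroup.r j : DihedralGroup (2 ^ (n - 1)))) := by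
      apply Set.eq_of_subset_of_ncard_le
      · rintro _ ⟨k, rfl⟩
        rw [hi]
        refine ⟨i * (k : ZMod (2 ^ (n - 1))), ?_⟩
        show DihedralGroup.r (i * (k : ZMod (2 ^ (n - 1)))) = (DihedralGroup.r i) ^ k
        rw [DihedralGroup.r_zpow]
      · have h2 : (Set.range (fun j : ZMod (2 ^ (n - 1)) =>
            (DihedralGroup.r j : DihedralGroup (2 ^ (n - 1))))).ncard = 2 ^ (n - 1) := by
          rw [← Set.image_univ, Set.ncard_image_of_injective, Set.ncard_univ, Nat.card_zmod]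
          intro a b hab
          exact DihedralGroup.r.inj hab
        rw [h2]
        have h3 : ((Subgroup.zpowers (e s) : Subgroup (DihedralGroup (2 ^ (n - 1)))) :
            Set (DihedralGroup (2 ^ (n - 1)))).ncard =
            Nat.card (Subgroup.zpowers (e s)) := (Nat.card_coe_set_eq _).symm
        rw [h3, Nat.card_zpowers, hso]
      · exact Set.toFinite _
    intro j
    rw [← SetLike.mem_coe, h1]
    exact ⟨j, rfl⟩
  have hrot' : ∀ x : P, (∃ j, e x = DihedralGroup.r j) → (x : G) ∈ Subgroup.zpowers σ := by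
    rintro x ⟨j, hj⟩
    obtain ⟨k, hk⟩ := hrot j
    refine ⟨k, ?_⟩
    have h1 : e (s ^ k) = e x := by rw [map_zpow, hj]; exact hk
    have h2 := e.injective h1
    rw [← h2]; rfl
  set t : P := e.symm (DihedralGroup.sr 0) with ht
  have het : e t = DihedralGroup.sr 0 := e.apply_symm_apply _
  refine ⟨t, hn, hσ, t.2, hσo, ?_, ?_, ?_⟩
  · have : t * t = 1 := by
      apply e.injective
      rw [map_mul, het, map_one, DihedralGroup.sr_mul_sr, sub_self]; rfl
    exact congrArg Subtype.val this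
  · have : t * s * t⁻¹ = s⁻¹ := by
      apply e.injective
      rw [map_mul, map_mul, map_inv, map_inv, het, hi]
      rw [DihedralGroup.sr_mul_r, DihedralGroup.inv_sr, DihedralGroup.sr_mul_sr,
        DihedralGroup.inv_r]
      congr 1
      ring
    exact congrArg Subtype.val this
  · intro x hx
    rcases h : e ⟨x, hx⟩ with j | j
    · left; exact hrot' ⟨x, hx⟩ ⟨j, h⟩
    · right
      apply hrot' (⟨x, hx⟩ * t)
      refine ⟨_, by rw [map_mul, h, het, DihedralGroup.sr_mul_sr]⟩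

namespace DP
variable (D : DP P n σ τ)
include D

theorem L4 : 4 ≤ 2 ^ (n - 1) := by
  have := D.hn
  calc 4 = 2 ^ 2 := by norm_num
    _ ≤ 2 ^ (n - 1) := Nat.pow_le_pow_right (by norm_num) (by omega)

theorem L_eq : 2 ^ (n - 1) = 2 * 2 ^ (n - 2) := by
  have := D.hn
  rw [← pow_succ']; congr 1; omega

theorem Lpow : 2 ^ n = 2 * 2 ^ (n - 1) := by
  have := D.hn
  rw [← pow_succ']; congr 1; omega

theorem zle : Subgroup.zpowers σ ≤ P := by
  rw [Subgroup.zpowers_le]; exact D.hσ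

theorem tinv : τ⁻¹ = τ := by rw [inv_eq_iff_mul_eq_one, D.hτ2]

theorem tau_inv {y : G} (hy : y ∈ Subgroup.zpowers σ) : τ * y * τ⁻¹ = y⁻¹ := by
  obtain ⟨k, rfl⟩ := hy
  show τ * σ ^ k * τ⁻¹ = (σ ^ k)⁻¹
  rw [← conj_zpow, D.hrel, inv_zpow]

/-- elements outside the rotation subgroup invert it -/
theorem inv_of {x y : G} (hx : x ∈ P) (hx' : x ∉ Subgroup.zpowers σ)
    (hy : y ∈ Subgroup.zpowers σ) : x * y * x⁻¹ = y⁻¹ := by
  have h1 := (D.hcov x hx).resolve_left hx'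
  set w := x * τ with hw
  have hxw : x = w * τ := by rw [hw, mul_assoc, D.hτ2, mul_one]
  have hcomm : w * y⁻¹ = y⁻¹ * w := by
    obtain ⟨k, hk⟩ := h1
    obtain ⟨j, hj⟩ := Subgroup.inv_mem _ hy
    have hk' : σ ^ k = w := hk
    have hj' : σ ^ j = y⁻¹ := hj
    rw [← hk', ← hj', ← zpow_add, ← zpow_add, add_comm]
  calc x * y * x⁻¹ = w * (τ * y * τ⁻¹) * w⁻¹ := by rw [hxw]; group
    _ = y⁻¹ := by rw [D.tau_inv hy, hcomm]; group

theorem sq_of {x : G} (hx : x ∈ P) (hx' : x ∉ Subgroup.zpowers σ) : x * x = 1 := by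
  have h1 := (D.hcov x hx).resolve_left hx'
  set w := x * τ with hw
  have hxw : x = w * τ := by rw [hw, mul_assoc, D.hτ2, mul_one]
  calc x * x = w * (τ * w * τ⁻¹) * (τ * τ) := by rw [hxw]; group
    _ = 1 := by rw [D.tau_inv h1, D.hτ2]; group

theorem rot_of {x : G} (hx : x ∈ P) (h : x * x ≠ 1) : x ∈ Subgroup.zpowers σ := by
  by_contra h1
  exact h (D.sq_of hx h1)

theorem mul_rot {x y : G} (hx : x ∈ P) (hx' : x ∉ Subgroup.zpowers σ) (hy : y ∈ P)
    (hy' : y ∉ Subgroup.zpowers σ) : x * y ∈ Subgroup.zpowers σ := by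
  have h1 := (D.hcov x hx).resolve_left hx'
  have h2 := (D.hcov y hy).resolve_left hy'
  have h3 : x * y = (x * τ) * (τ * (y * τ) * τ⁻¹) := by
    calc x * y = x * 1 * y * 1 := by group
      _ = x * (τ * τ) * y * (τ * τ⁻¹) := by rw [D.hτ2, mul_inv_cancel]
      _ = _ := by group
  rw [h3, D.tau_inv h2]
  exact Subgroup.mul_mem _ h1 (Subgroup.inv_mem _ h2)

theorem sigma_sq : σ * σ ≠ 1 := by
  intro h
  have h1 : orderOf σ ∣ 2 := orderOf_dvd_of_pow_eq_one (by rw [pow_two]; exact h)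
  rw [D.hσo] at h1
  have := Nat.le_of_dvd (by norm_num) h1
  have := D.L4
  omega

theorem tau_notMem : τ ∉ Subgroup.zpowers σ := by
  intro h
  have h1 := D.tau_inv (Subgroup.mem_zpowers σ)
  obtain ⟨k, hk⟩ := h
  have hk' : σ ^ k = τ := hk
  have h2 : τ * σ * τ⁻¹ = σ := by
    rw [← hk']; group
  rw [h2] at h1
  apply D.sigma_sq
  nth_rw 2 [h1]
  exact mul_inv_cancel σ

theorem J_order : orderOf (σ ^ (2 ^ (n - 2))) = 2 := by
  have h1 : orderOf (σ ^ (2 ^ (n - 2))) = orderOf σ / 2 ^ (n - 2) :=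
    orderOf_pow_of_dvd (by positivity) (by rw [D.hσo, D.L_eq]; exact dvd_mul_left _ _)
  rw [h1, D.hσo, D.L_eq, Nat.mul_div_cancel _ (by positivity)]

theorem J_ne : σ ^ (2 ^ (n - 2)) ≠ 1 := by
  intro h
  have := D.J_order
  rw [h, orderOf_one] at this
  omega

/-- the only involution in the rotation subgroup -/
theorem eq_J {y : G} (hy : y ∈ Subgroup.zpowers σ) (h2 : y * y = 1) (h1 : y ≠ 1) :
    y = σ ^ (2 ^ (n - 2)) := by
  obtain ⟨k, rfl⟩ : ∃ k : ℕ, y = σ ^ k := by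
    rcases hy with ⟨k, rfl⟩
    have hpos : 0 < orderOf σ := by rw [D.hσo]; positivity
    refine ⟨(k % (orderOf σ : ℤ)).toNat, ?_⟩
    show σ ^ k = _
    rw [← zpow_natCast, Int.toNat_of_nonneg (Int.emod_nonneg _ (by omega)), zpow_mod_orderOf]
  have h3 : orderOf σ ∣ k + k := by
    rw [orderOf_dvd_iff_pow_eq_one, pow_add]; exact h2
  rw [D.hσo, D.L_eq, ← two_mul] at h3
  have h4 : 2 ^ (n - 2) ∣ k := Nat.dvd_of_mul_dvd_mul_left (by norm_num) h3
  obtain ⟨j, rfl⟩ := h4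
  have hJJ : (σ ^ (2 ^ (n - 2))) ^ 2 = 1 := by
    have := pow_orderOf_eq_one (σ ^ (2 ^ (n - 2)))
    rwa [D.J_order] at this
  rw [pow_mul] at h1 ⊢
  rcases Nat.even_or_odd' j with ⟨i, hi | hi⟩
  · exfalso
    apply h1
    rw [hi, pow_mul, hJJ, one_pow]
  · rw [hi, pow_succ, pow_mul, hJJ, one_pow, one_mul]

theorem J_central {x : G} (hx : x ∈ P) : x * σ ^ (2 ^ (n - 2)) = σ ^ (2 ^ (n - 2)) * x := by
  by_cases h : x ∈ Subgroup.zpowers σ
  · obtain ⟨k, hk⟩ := h
    have hk' : σ ^ k = x := hk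
    rw [← hk', ← zpow_natCast, ← zpow_add, ← zpow_add, add_comm]
  · have h1 := D.inv_of hx h (Subgroup.npow_mem_zpowers σ (2 ^ (n - 2)))
    have h2 : (σ ^ (2 ^ (n - 2)))⁻¹ = σ ^ (2 ^ (n - 2)) := by
      rw [inv_eq_iff_mul_eq_one, ← pow_two]
      have := pow_orderOf_eq_one (σ ^ (2 ^ (n - 2)))
      rwa [D.J_order] at this
    rw [h2, mul_inv_eq_iff_eq_mul] at h1
    exact h1

theorem J_mem : σ ^ (2 ^ (n - 2)) ∈ P := P.pow_mem D.hσ _

theorem card_P [Finite G] : Nat.card P = 2 ^ n := by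
  rw [D.Lpow]
  have hidx : (Subgroup.zpowers σ).relIndex P = 2 := by
    rw [Subgroup.relIndex, Subgroup.index_eq_two_iff]
    refine ⟨⟨τ, D.hτ⟩, fun b => ?_⟩
    rw [Subgroup.mem_subgroupOf, Subgroup.mem_subgroupOf]
    show Xor' ((b : G) * τ ∈ _) ((b : G) ∈ _)
    by_cases hb : (b : G) ∈ Subgroup.zpowers σ
    · right
      refine ⟨hb, fun h => D.tau_notMem ?_⟩
      have := Subgroup.mul_mem _ (Subgroup.inv_mem _ hb) h
      rwa [inv_mul_cancel_left] at this
    · left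
      exact ⟨(D.hcov b b.2).resolve_left hb, hb⟩
  have h1 := ((Subgroup.zpowers σ).subgroupOf P).index_mul_card
  rw [← Subgroup.relIndex, hidx, Nat.card_congr (Subgroup.subgroupOfEquivOfLe D.zle).toEquiv,
    Nat.card_zpowers, D.hσo] at h1
  exact h1.symm

/-- centralizers in `P` of rotations of order at least four -/
theorem cent_rot {x : G} (hx : x ∈ Subgroup.zpowers σ) (h : x * x ≠ 1) :
    P ⊓ Subgroup.centralizer ({x} : Set G) = Subgroup.zpowers σ := by
  ext y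
  rw [Subgroup.mem_inf, Subgroup.mem_centralizer_singleton_iff]
  constructor
  · rintro ⟨hy, hyx⟩
    by_contra hy'
    apply h
    have h1 := D.inv_of hy hy' hx
    rw [hyx, mul_inv_cancel_right] at h1
    nth_rw 2 [h1]
    exact mul_inv_cancel x
  · intro hy
    refine ⟨D.zle hy, ?_⟩
    obtain ⟨k, hk⟩ := hx
    obtain ⟨j, hj⟩ := hy
    have hk' : σ ^ k = x := hk
    have hj' : σ ^ j = y := hj
    rw [← hk', ← hj', ← zpow_add, ← zpow_add, add_comm]

end DP

end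

end Cfsg.Agent.H25.DihGrp
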