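import Cfsg.Agent.H25_Princ
import Cfsg.Agent.H25_Cov2
import Cfsg.Agent.H25_IndCong
import Cfsg.Agent.H25_FMT
import Cfsg.Agent.H10_BlockQuot

/-! The principal block and overgroups of a Sylow subgroup. -/

open scoped ComplexConjugate

namespace Cfsg.Agent.H25.PS

open Cfsg Cfsg.Agent.H10.BlockLoc Cfsg.Agent.H10.BlockAlg Cfsg.Agent.H10.BlockIdem
  Cfsg.Agent.H10.BlockDefect Cfsg.Agent.H10.BlockSMT2 Cfsg.Agent.H10.BlockMain Cfsg.Agent.H10.BlockInd
  Cfsg.Agent.H10.BlockOrth Cfsg.Agent.H10.BlockKer Cfsg.Agent.H10.BlockNormal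
  Cfsg.Agent.H3.CharIrr
  Cfsg.Agent.H25.Red Cfsg.Agent.H25.KG Cfsg.Agent.H25.BPTr Cfsg.Agent.H25.BPMain
  Cfsg.Agent.H25.BPDef Cfsg.Agent.H25.BPInd Cfsg.Agent.H3.CharComplete Cfsg.Agent.H10.Char
  Cfsg.Agent.H25.Brauer

variable {M : Ideal AlgInt} {G : Type*} [Group G] [Fintype G] {p : ℕ} [hp : Fact p.Prime]

/-- Brauer morphism of the principal block -/
theorem tr_principal (hM : IsPModular p M) [hMax : M.IsMaximal] [hch : CharP (KM M) p]
    {P : Subgroup G} (hP : IsPGroup p P) :
    tr (Ce P) (epG M (principalBlock M G)) = ep M (Ce P) (principalBlock M (Ce P)) := by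
  have hpr : IsPBlock M (principalBlock M (Ce P)) := by
    haveI : Fintype (Ce P) := Fintype.ofFinite _
    exact principal_isPBlock
  have hB : IsBlk ⊤ (epG M (principalBlock M G)) := isBlk_epG principal_isPBlock
  have hpb := isBlk_ep (M := M) hpr
  refine eq_of_blks (H := Ce P) (tr_mem_Z le_top hB.mem.2) (tr_idem hP (hB.mem.2.mono le_top) hB.idem)
    hpb.mem hpb.idem fun e he => ?_
  obtain ⟨f, hf, rfl⟩ := exists_ep he
  constructor
  · intro h
    have h1 : IsBrauerPairOf p M (principalBlock M G) P f :=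
      bpo_iff.2 ⟨principal_isPBlock, hf, ⟨hP, hB, he, h⟩⟩
    rw [(third hM hP hf).1 h1]
    exact hpb.idem
  · intro h
    have h0 : ep M (Ce P) f ≠ 0 := he.ne
    have h1 : ep M (Ce P) (principalBlock M (Ce P)) = ep M (Ce P) f :=
      hpb.eq_of_mul he (by rw [h]; exact h0)
    have h2 : f = principalBlock M (Ce P) := (ep_inj hpr hf h1).symm
    exact (bpo_iff.1 ((third hM hP hf).2 h2)).2.2.tr

theorem npc_cent (P : Sylow p G) : HasNormalPComplement p (Ce (P : Subgroup G)) := by
  apply H2.Fusion3.npc_of_frobenius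
  intro Q hQ g _ _
  have h1 : IsPGroup p (Q.map (Ce (P : Subgroup G)).subtype) := hQ.map _
  have h2 : Q.map (Ce (P : Subgroup G)).subtype ≤ (P : Subgroup G) := by
    have h3 : IsPGroup p ((P : Subgroup G) ⊔ Q.map (Ce (P : Subgroup G)).subtype : Subgroup G) := by
      refine H25.BPSub.isPGroup_sup P.2 h1 ?_
      rintro _ ⟨x, _, rfl⟩
      exact Cfsg.Agent.H25.FMT.Ce_le_Nm _ x.2
    have h4 := P.3 h3 le_sup_left
    exact le_sup_right.trans h4.le
  rw [Subgroup.mem_centralizer_iff]
  intro x hx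
  have h3 : (x : G) ∈ (P : Subgroup G) := h2 ⟨x, hx, rfl⟩
  exact Subtype.ext ((Subgroup.mem_centralizer_iff.1 g.2) _ h3)

open Classical in
/-- idempotent coefficients of the principal block of a group with a normal `p`-complement -/
theorem coeff_npc (hM : IsPModular p M) {K : Type*} [Group K] [Fintype K] (N : Subgroup K)
    [hN : N.Normal] (hNp : ¬ p ∣ Nat.card N) (hidx : ∃ k : ℕ, N.index = p ^ k) (k : K) :
    blockCoeff (principalBlock M K) k = if k ∈ N then (Nat.card N : ℂ)⁻¹ else 0 := by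
  haveI := hM.2.1
  haveI : Fintype (IrrCharacter K) := Fintype.ofFinite _
  have h1 : (Nat.card N : ℂ)⁻¹ • normalSum N = eB (principalBlock M K) := by
    apply eq_eB
    intro χ
    rw [map_smul, om_normalSum, smul_eq_mul]
    by_cases h : ∀ u ∈ N, (χ : K → ℂ) u = (χ : K → ℂ) 1
    · rw [if_pos h, if_pos (principal_of_complement hM N hNp hidx h),
        inv_mul_cancel₀ (Nat.cast_ne_zero.2 Nat.card_pos.ne')]
    · rw [if_neg h, mul_zero, if_neg (fun h' => h (principal_ker hM N hNp h'))]
  rw [← eB_coeff, ← h1]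
  have h2 : (((Nat.card N : ℂ)⁻¹ • normalSum N : ZC K) : MonoidAlgebra ℂ K).coeff k =
      (Nat.card N : ℂ)⁻¹ * ((normalSum N : ZC K) : MonoidAlgebra ℂ K).coeff k := rfl
  rw [h2, normalSum_coeff]
  split_ifs <;> simp

theorem coeff_cent (hM : IsPModular p M) {P : Subgroup G} (hP : IsPGroup p P) {h : G}
    (hh : h ∈ Ce P) :
    MemLocalIdeal M (blockCoeff (principalBlock M G) h -
      blockCoeff (principalBlock M (Ce P)) ⟨h, hh⟩) := by
  have := hM.2.1
  have := charP_KM M hM
  haveI : Fintype (Ce P) := Fintype.ofFinite _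
  have hpr : IsPBlock M (principalBlock M (Ce P)) := principal_isPBlock
  have h1 : (tr (Ce P) (epG M (principalBlock M G))).coeff h =
      (ep M (Ce P) (principalBlock M (Ce P))).coeff h := by rw [tr_principal hM hP]
  rw [tr_c_of_mem _ hh, epG_c, ep_c, sbc_mem _ hh] at h1
  rwa [rd_eq_iff (blockCoeff_mem principal_isPBlock _) (blockCoeff_mem hpr _)] at h1

open Classical in
theorem sum_unit (hM : IsPModular p M) (P : Sylow p G) {H : Subgroup G} (hPH : (P : Subgroup G) ≤ H) :
    ¬ MemLocalIdeal M (∑ x : G, if x ∈ H then blockCoeff (principalBlock M G) x else 0) := by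
  haveI := hM.2.1
  haveI : Fintype (IrrCharacter G) := Fintype.ofFinite _
  haveI : Fintype (Ce (P : Subgroup G)) := Fintype.ofFinite _
  haveI : Fintype (Subgroup.centralizer ((P : Subgroup G) : Set G)) := Fintype.ofFinite _
  letI : MulAction (P : Subgroup G) G := MulAction.compHom G
    (MulAut.conj.comp (P : Subgroup G).subtype : (P : Subgroup G) →* MulAut G)
  have hsmul : ∀ (q : (P : Subgroup G)) (x : G), q • x = (q : G) * x * (q : G)⁻¹ := fun q x => rfl
  have hB : IsPBlock M (principalBlock M G) := principal_isPBlock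
  have h2 := sum_sub_fixed hM P.2 (fun x : G => if x ∈ H then blockCoeff (principalBlock M G) x else 0)
    (fun x => by split_ifs; exacts [blockCoeff_mem hB x, ring_zero])
    (by
      intro q x
      simp only [hsmul]
      have h3 : (q : G) * x * (q : G)⁻¹ ∈ H ↔ x ∈ H := by
        constructor
        · intro h
          have h4 := H.mul_mem (H.mul_mem (H.inv_mem (hPH q.2)) h) (hPH q.2)
          have h5 : (q : G)⁻¹ * ((q : G) * x * (q : G)⁻¹) * q = x := by group
          rwa [h5] at h4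
        · intro h
          exact H.mul_mem (H.mul_mem (hPH q.2) h) (H.inv_mem (hPH q.2))
      by_cases h : x ∈ H
      · rw [if_pos h, if_pos (h3.2 h)]
        exact blockCoeff_class _ x q
      · rw [if_neg h, if_neg (fun h' => h (h3.1 h'))])
    (Finset.univ.filter (fun x : G => x ∈ Ce (P : Subgroup G))) (by
      intro x
      rw [Finset.mem_filter, Subgroup.mem_centralizer_iff]
      simp only [Finset.mem_univ, true_and, hsmul]
      constructor
      · intro h q
        rw [h q q.2, mul_inv_cancel_right]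
      · intro h q hq
        have := h ⟨q, hq⟩
        rw [mul_inv_eq_iff_eq_mul] at this
        exact this)
  obtain ⟨N, hN, hNp, k, hk⟩ := H2.Basic.npc_iff.1 (npc_cent P)
  have h3 : MemLocalIdeal M (∑ x ∈ Finset.univ.filter (fun x : G => x ∈ Ce (P : Subgroup G)),
        (if x ∈ H then blockCoeff (principalBlock M G) x else 0) -
      ∑ x ∈ Finset.univ.filter (fun x : G => x ∈ Ce (P : Subgroup G)),
        (if x ∈ H ⊓ N.map (Ce (P : Subgroup G)).subtype then (Nat.card N : ℂ)⁻¹ else 0)) := by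
    rw [← Finset.sum_sub_distrib]
    refine ideal_sum _ _ fun x hx => ?_
    have hxC : x ∈ Ce (P : Subgroup G) := (Finset.mem_filter.1 hx).2
    by_cases hxH : x ∈ H
    · rw [if_pos hxH]
      have h4 := coeff_cent hM P.2 hxC
      rw [coeff_npc hM N hNp ⟨k, hk⟩] at h4
      by_cases hxN : (⟨x, hxC⟩ : Ce (P : Subgroup G)) ∈ N
      · rw [if_pos hxN] at h4
        rw [if_pos (Subgroup.mem_inf.2 ⟨hxH, Subgroup.mem_map.2 ⟨_, hxN, rfl⟩⟩)]
        exact h4
      · rw [if_neg hxN] at h4
        rw [if_neg]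
        · exact h4
        · rintro h5
          obtain ⟨y, hy, hyx⟩ := (Subgroup.mem_inf.1 h5).2
          apply hxN
          have : y = ⟨x, hxC⟩ := Subtype.ext hyx
          rw [← this]; exact hy
    · rw [if_neg hxH, if_neg (fun h => hxH (Subgroup.mem_inf.1 h).1), sub_zero]
      exact ideal_zero
  have h4 : ∑ x ∈ Finset.univ.filter (fun x : G => x ∈ Ce (P : Subgroup G)),
        (if x ∈ H ⊓ N.map (Ce (P : Subgroup G)).subtype then (Nat.card N : ℂ)⁻¹ else 0) =
      (Nat.card (H ⊓ N.map (Ce (P : Subgroup G)).subtype : Subgroup G) : ℂ) * (Nat.card N : ℂ)⁻¹ := by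
    rw [← Finset.sum_filter, Finset.filter_filter, Finset.sum_const, nsmul_eq_mul]
    congr 2
    rw [Nat.card_eq_fintype_card, Fintype.card_subtype]
    congr 1
    ext x
    rw [Finset.mem_filter, Finset.mem_filter]
    constructor
    · rintro ⟨h, -, h'⟩; exact ⟨h, h'⟩
    · rintro ⟨h, h'⟩
      refine ⟨h, ?_, h'⟩
      obtain ⟨y, hy, rfl⟩ := (Subgroup.mem_inf.1 h').2
      exact y.2
  rw [h4] at h3
  intro hcon
  have h5 := ideal_sub hcon (ideal_add h2 h3)
  have h6 : MemLocalIdeal M ((Nat.card (H ⊓ N.map (Ce (P : Subgroup G)).subtype : Subgroup G) : ℂ) *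
      (Nat.card N : ℂ)⁻¹) := by
    convert h5 using 1
    ring
  have h7 := ideal_mul_right h6 (ring_natCast (M := M) (Nat.card N))
  rw [mul_assoc, inv_mul_cancel₀ (Nat.cast_ne_zero.2 Nat.card_pos.ne'), mul_one,
    ideal_natCast_iff hM] at h7
  apply hNp
  refine h7.trans ?_
  have h8 : Nat.card (N.map (Ce (P : Subgroup G)).subtype : Subgroup G) = Nat.card N :=
    Subgroup.card_map_of_injective (Ce (P : Subgroup G)).subtype_injective
  rw [← h8]
  exact Subgroup.card_dvd_of_le inf_le_right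

theorem trunc_unit (hM : IsPModular p M) (P : Sylow p G) {H : Subgroup G} [Fintype H]
    (hPH : (P : Subgroup G) ≤ H) [Fintype (IrrCharacter G)] {ξ : IrrCharacter H}
    (hξ : ξ ∈ principalBlock M H) :
    ¬ MemLocalIdeal M (om ξ (truncZ H (eB (principalBlock M G)))) := by
  classical
  haveI := hM.2.1
  intro h
  apply sum_unit hM P hPH
  have h1 := om_sub_mem_of_sameBlock (block_sameBlock principal_isPBlock (triv_mem (G := H)) hξ)
    (truncZ_mem H (eB_mem_ZI (principal_isPBlock (M := M) (G := G))))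
  have h2 := ideal_add h1 h
  rw [sub_add_cancel] at h2
  convert h2 using 1
  rw [om_apply, triv_coe, div_one, lin_apply, sum_mem_eq H (fun x => blockCoeff (principalBlock M G) x)]
  refine Finset.sum_congr rfl fun x _ => ?_
  rw [triv_coe, mul_one]
  rfl

open Classical in
theorem exists_above (hM : IsPModular p M) (P : Sylow p G) {H : Subgroup G} [Fintype H]
    (hPH : (P : Subgroup G) ≤ H) {ξ : IrrCharacter H} (hξ : ξ ∈ principalBlock M H) :
    ∃ χ ∈ principalBlock M G, classInner (fun h : H => (χ : G → ℂ) h) (ξ : H → ℂ) ≠ 0 ∧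
      (¬ p ∣ charDegree (ξ : H → ℂ) → ¬ p ∣ charDegree (χ : G → ℂ)) := by
  haveI := hM.2.1
  haveI : Fintype (IrrCharacter G) := Fintype.ofFinite _
  have h1 := trunc_unit hM P hPH hξ
  have h2 := IndCong.part_ind H (principalBlock M G) ξ
  rw [IndCong.lin_decomp] at h2
  -- multiplicities
  have hm : ∀ χ : IrrCharacter G, ∃ n : ℕ,
      classInner (indFun H (ξ : H → ℂ)) (χ : G → ℂ) = n := by
    intro χ
    rw [Brauer.frobenius H _ _ (IsIrr.isClass χ.2)]
    exact Cfsg.Agent.H3.CharComplete.ci_char_nat (IsIrr.isCharacter ξ.2)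
      (Brauer.IsChar.res (IsIrr.isCharacter χ.2) H)
  choose m hm using hm
  have hpos : indFun H (ξ : H → ℂ) 1 ≠ 0 := by
    rw [IndCong.indFun_one]
    exact mul_ne_zero (Nat.cast_ne_zero.2 Subgroup.index_ne_zero_of_finite) (IsIrr.one_ne_zero ξ.2)
  have hne : indFun H (ξ : H → ℂ) 1 * om ξ (truncZ H (eB (principalBlock M G))) ≠ 0 :=
    mul_ne_zero hpos (ne_zero_of_not_ideal h1)
  have hres : ∀ χ : IrrCharacter G, m χ ≠ 0 →
      classInner (fun h : H => (χ : G → ℂ) h) (ξ : H → ℂ) ≠ 0 := by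
    intro χ h
    have h3 := hm χ
    rw [Brauer.frobenius H _ _ (IsIrr.isClass χ.2)] at h3
    rw [← ci_conj_symm, map_ne_zero, h3]
    exact Nat.cast_ne_zero.2 h
  by_cases hξp : p ∣ charDegree (ξ : H → ℂ)
  · have h3 : ∃ χ : IrrCharacter G, (if χ ∈ principalBlock M G then
        classInner (indFun H (ξ : H → ℂ)) (χ : G → ℂ) * (χ : G → ℂ) 1 else 0) ≠ 0 := by
      by_contra hcon
      push Not at hcon
      rw [Finset.sum_eq_zero fun χ _ => hcon χ] at h2
      exact hne h2.symm
    obtain ⟨χ, hχ⟩ := h3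
    by_cases h4 : χ ∈ principalBlock M G
    · rw [if_pos h4] at hχ
      refine ⟨χ, h4, hres χ ?_, fun h => absurd hξp h⟩
      rintro h0
      rw [hm, h0, Nat.cast_zero, zero_mul] at hχ
      exact hχ rfl
    · rw [if_neg h4] at hχ; exact absurd rfl hχ
  · have h3 : ∃ χ : IrrCharacter G, ¬ MemLocalIdeal M (if χ ∈ principalBlock M G then
        classInner (indFun H (ξ : H → ℂ)) (χ : G → ℂ) * (χ : G → ℂ) 1 else 0) := by
      by_contra hcon
      push Not at hcon
      have h4 := ideal_sum (M := M) Finset.univ _ fun χ _ => hcon χ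
      rw [h2] at h4
      have hu : ¬ MemLocalIdeal M (indFun H (ξ : H → ℂ) 1) := by
        rw [IndCong.indFun_one, ← charDegree_eq ξ.2, ← Nat.cast_mul, ideal_natCast_iff hM]
        intro h5
        rcases (hp.out.dvd_mul).1 h5 with h6 | h6
        · exact P.not_dvd_index (h6.trans (Subgroup.index_dvd_of_le hPH))
        · exact hξp h6
      have hr : MemLocalRing M (indFun H (ξ : H → ℂ) 1) := by
        rw [IndCong.indFun_one, ← charDegree_eq ξ.2, ← Nat.cast_mul]
        exact ring_natCast _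
      rcases ideal_of_mul hr (om_mem ξ (truncZ_mem H (eB_mem_ZI principal_isPBlock))) h4 with h5 | h5
      · exact hu h5
      · exact h1 h5
    obtain ⟨χ, hχ⟩ := h3
    by_cases h4 : χ ∈ principalBlock M G
    · rw [if_pos h4] at hχ
      refine ⟨χ, h4, hres χ ?_, fun _ h => ?_⟩
      · rintro h0
        rw [hm, h0, Nat.cast_zero, zero_mul] at hχ
        exact hχ ideal_zero
      · apply hχ
        rw [hm, ← charDegree_eq χ.2]
        exact ideal_mul_left (ring_natCast _) ((ideal_natCast_iff hM _).2 h)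
    · rw [if_neg h4] at hχ; exact absurd ideal_zero hχ

end Cfsg.Agent.H25.PS
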