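import Cfsg.Agent.H25_PS
import Cfsg.Agent.H25_CovRel
import Cfsg.Agent.H3_CharMult

/-! The principal block and normal subgroups. -/

open scoped ComplexConjugate

namespace Cfsg.Agent.H25.PS2

open Cfsg Cfsg.Agent.H10.BlockLoc Cfsg.Agent.H10.BlockAlg Cfsg.Agent.H10.BlockIdem
  Cfsg.Agent.H10.BlockDefect Cfsg.Agent.H10.BlockSMT2 Cfsg.Agent.H10.BlockMain Cfsg.Agent.H10.BlockInd
  Cfsg.Agent.H10.BlockOrth Cfsg.Agent.H10.BlockKer Cfsg.Agent.H10.BlockNormal Cfsg.Agent.H10.BlockCov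
  Cfsg.Agent.H3.CharIrr Cfsg.Agent.H3.CharComplete Cfsg.Agent.H10.Char Cfsg.Agent.H3.CharMult
  Cfsg.Agent.H25.Red Cfsg.Agent.H25.KG Cfsg.Agent.H25.BPTr Cfsg.Agent.H25.BPMain
  Cfsg.Agent.H25.BPDef Cfsg.Agent.H25.BPInd Cfsg.Agent.H25.Brauer
  Cfsg.Agent.H25.FMT Cfsg.Agent.H25.IndQ Cfsg.Agent.H25.CovRel Cfsg.Agent.H25.Cov2 Cfsg.Agent.H25.PS

section chars
variable {G : Type*} [Group G] [Fintype G]

theorem mult_nat {H : Subgroup G} [Fintype H] (χ : IrrCharacter G) (θ : IrrCharacter H) :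
    ∃ n : ℕ, classInner (fun h : H => (χ : G → ℂ) h) (θ : H → ℂ) = n :=
  ci_char_nat (Brauer.IsChar.res (IsIrr.isCharacter χ.2) H) (IsIrr.isCharacter θ.2)

theorem incl_char {N H : Subgroup G} (hNH : N ≤ H) {ξ : H → ℂ} (hξ : IsCharacter H ξ) [Fintype N] :
    IsCharacter N (fun n : N => ξ ⟨(n : G), hNH n.2⟩) := by
  have h1 := Cfsg.Agent.H3.CharInd.IsChar.comp hξ (Subgroup.inclusion hNH)
  exact h1

theorem trans_sum {N H : Subgroup G} [Fintype N] [Fintype H] [Fintype (IrrCharacter H)]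
    (hNH : N ≤ H) (χ : IrrCharacter G) (θ : IrrCharacter N) :
    classInner (fun n : N => (χ : G → ℂ) n) (θ : N → ℂ) = ∑ ξ : IrrCharacter H,
      classInner (fun h : H => (χ : G → ℂ) h) (ξ : H → ℂ) *
        classInner (fun n : N => (ξ : H → ℂ) ⟨(n : G), hNH n.2⟩) (θ : N → ℂ) := by
  have h1 : ∀ n : N, (χ : G → ℂ) n = ∑ ξ : IrrCharacter H,
      classInner (fun h : H => (χ : G → ℂ) h) (ξ : H → ℂ) * (ξ : H → ℂ) ⟨(n : G), hNH n.2⟩ := by
    intro n
    exact expand_apply (fun h : H => (χ : G → ℂ) h)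
      (IsChar.isClass (Brauer.IsChar.res (IsIrr.isCharacter χ.2) H)) ⟨(n : G), hNH n.2⟩
  simp only [classInner]
  rw [Finset.sum_congr rfl fun n _ => by rw [h1 n]]
  simp only [classInner, Finset.mul_sum, Finset.sum_mul]
  rw [Finset.sum_comm]
  refine Finset.sum_congr rfl fun ξ _ => Finset.sum_congr rfl fun n _ => ?_
  exact Finset.sum_congr rfl fun i _ => by ring

theorem trans_ne {N H : Subgroup G} [Fintype N] [Fintype H] (hNH : N ≤ H) {χ : IrrCharacter G}
    {ξ : IrrCharacter H} {θ : IrrCharacter N}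
    (h1 : classInner (fun h : H => (χ : G → ℂ) h) (ξ : H → ℂ) ≠ 0)
    (h2 : classInner (fun n : N => (ξ : H → ℂ) ⟨(n : G), hNH n.2⟩) (θ : N → ℂ) ≠ 0) :
    classInner (fun n : N => (χ : G → ℂ) n) (θ : N → ℂ) ≠ 0 := by
  classical
  haveI : Fintype (IrrCharacter H) := Fintype.ofFinite _
  have hn : ∀ ξ : IrrCharacter H, ∃ n : ℕ, classInner (fun h : H => (χ : G → ℂ) h) (ξ : H → ℂ) *
        classInner (fun n : N => (ξ : H → ℂ) ⟨(n : G), hNH n.2⟩) (θ : N → ℂ) = n := by
    intro ξ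
    obtain ⟨a, ha⟩ := mult_nat χ ξ
    obtain ⟨b, hb⟩ := ci_char_nat (incl_char hNH (IsIrr.isCharacter ξ.2)) (IsIrr.isCharacter θ.2)
    exact ⟨a * b, by rw [ha, hb]; push_cast; rfl⟩
  choose n hn using hn
  rw [trans_sum hNH χ θ, Finset.sum_congr rfl fun ξ _ => hn ξ, ← Nat.cast_sum, Nat.cast_ne_zero]
  intro h0
  have h3 := (Finset.sum_eq_zero_iff.1 h0) ξ (Finset.mem_univ _)
  have h4 := hn ξ
  rw [h3, Nat.cast_zero] at h4
  exact (mul_ne_zero h1 h2) h4

theorem exists_ext {N H : Subgroup G} [Fintype N] [Fintype H] (hNH : N ≤ H) (θ : IrrCharacter N) :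
    ∃ ξ : IrrCharacter H, classInner (fun n : N => (ξ : H → ℂ) ⟨(n : G), hNH n.2⟩) (θ : N → ℂ) ≠ 0 := by
  classical
  haveI : Fintype (N.subgroupOf H) := Fintype.ofFinite _
  obtain ⟨ξ, hξ, h⟩ := exists_constituent_ind (G := H) (H := N.subgroupOf H)
    (H10.BlockEFM.tr (sI hNH).symm θ).2
  rw [constituent_ind_iff (IsIrr.isCharacter hξ)] at h
  refine ⟨⟨ξ, hξ⟩, ?_⟩
  rw [← classInner_iso (sI hNH)] at h
  have e1 : (fun k => ((H10.BlockEFM.tr (sI hNH).symm θ : IrrCharacter (N.subgroupOf H)) : _ → ℂ) (sI hNH k)) =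
      (θ : N → ℂ) := by
    funext k
    rw [H10.BlockEFM.tr_apply, MulEquiv.symm_apply_apply]
  rw [e1] at h
  exact h

end chars

section blocks
variable {M : Ideal AlgInt} {G : Type*} [Group G] [Fintype G] {p : ℕ} [hp : Fact p.Prime]

theorem tB_principal [hMax : M.IsMaximal] {K L : Type*} [Group K] [Fintype K] [Group L] [Fintype L]
    (e : K ≃* L) : tB e (principalBlock M K) = principalBlock M L := by
  refine block_eq_of_mem (χ := triv L) (isPBlock_tB e principal_isPBlock) principal_isPBlock ?_ triv_mem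
  rw [mem_tB]
  have h1 : H10.BlockEFM.tr e (triv L) = triv K := Subtype.ext (funext fun k => rfl)
  rw [h1]; exact triv_mem

theorem cnj_principal [hMax : M.IsMaximal] {N : Subgroup G} [Fintype N] {g : G} (hg : g ∈ Nm N) :
    cnj g (ep M N (principalBlock M N)) = ep M N (principalBlock M N) := by
  have h1 : N = cs g N := (mem_normalizer_iff_cs.1 hg).symm
  rw [← ep_conj g h1, tB_principal]

theorem mem_of_index (hM : IsPModular p M) {N H : Subgroup G} [Fintype N] [Fintype H] (hNH : N ≤ H)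
    (hn : H ≤ Nm N) (hidx : ∃ m : ℕ, N.relIndex H = p ^ m) {θ : IrrCharacter N}
    (hθ : θ ∈ principalBlock M N) {ξ : IrrCharacter H}
    (h : classInner (fun n : N => (ξ : H → ℂ) ⟨(n : G), hNH n.2⟩) (θ : N → ℂ) ≠ 0) :
    ξ ∈ principalBlock M H := by
  have := hM.2.1
  have := charP_KM M hM
  have hbN : IsPBlock M (principalBlock M N) := principal_isPBlock
  have hbH : IsPBlock M (principalBlock M H) := principal_isPBlock
  have hN := isBlk_ep (M := M) hbN
  have hH := isBlk_ep (M := M) hbH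
  have hfix : Fix H (ep M N (principalBlock M N)) := by
    intro g hg
    exact cnj_principal (hn hg)
  have hblk := blk_of_index hM hNH hn hidx hN hfix
  have h1 : ep M H (principalBlock M H) * ep M N (principalBlock M N) ≠ 0 := by
    rw [← cov_rel hNH hn hbH hbN]
    refine ⟨triv H, triv_mem, triv N, triv_mem, ?_⟩
    have h0 := ci_irr_self (triv N).2
    intro h
    have h2 : classInner ((triv N : IrrCharacter N) : N → ℂ) ((triv N : IrrCharacter N) : N → ℂ) = 0 := h
    rw [h2] at h0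
    exact zero_ne_one h0
  have h2 : ep M H (principalBlock M H) = ep M N (principalBlock M N) := hH.eq_of_mul hblk h1
  have h3 : ep M H (blockOf M (ξ : H → ℂ)) * ep M N (principalBlock M N) ≠ 0 := by
    rw [← cov_rel hNH hn (isPBlock_blockOf ξ) hbN]
    exact ⟨ξ, mem_blockOf_self ξ, θ, hθ, h⟩
  have h4 := (isBlk_ep (M := M) (isPBlock_blockOf ξ)).eq_of_mul hblk h3
  have h5 := ep_inj (isPBlock_blockOf ξ) hbH (h4.trans h2.symm)
  rw [← h5]; exact mem_blockOf_self ξ

theorem relIndex_sylow (P : Sylow p G) (N : Subgroup G) [hN : N.Normal] :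
    ∃ m : ℕ, N.relIndex (N ⊔ (P : Subgroup G)) = p ^ m := by
  have h1 : N.relIndex (N ⊔ (P : Subgroup G)) = N.relIndex (P : Subgroup G) :=
    Subgroup.relIndex_sup_left _ _
  obtain ⟨n, hn⟩ := P.2.exists_card_eq
  have h2 : N.relIndex (P : Subgroup G) ∣ Nat.card (P : Subgroup G) := Subgroup.relIndex_dvd_card _ _
  rw [hn] at h2
  obtain ⟨i, -, hi⟩ := (Nat.dvd_prime_pow hp.out).1 h2
  exact ⟨i, by rw [h1, hi]⟩

theorem le_Nm_normal {N H : Subgroup G} [hN : N.Normal] : H ≤ Nm N := by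
  have : Nm N = ⊤ := Subgroup.normalizer_eq_top_iff.2 hN
  rw [this]; exact le_top

/-- every character of the principal block of a normal subgroup lies below the principal block -/
theorem exists_over_principal (hM : IsPModular p M) (N : Subgroup G) [hN : N.Normal] [Fintype N]
    {θ : IrrCharacter N} (hθ : θ ∈ principalBlock M N) :
    ∃ χ ∈ principalBlock M G, classInner (fun n : N => (χ : G → ℂ) n) (θ : N → ℂ) ≠ 0 := by
  classical
  obtain ⟨P⟩ : Nonempty (Sylow p G) := inferInstance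
  obtain ⟨ξ, hξ⟩ := exists_ext (le_sup_left : N ≤ N ⊔ (P : Subgroup G)) θ
  have h1 := mem_of_index hM le_sup_left le_Nm_normal (relIndex_sylow P N) hθ hξ
  obtain ⟨χ, hχ, h2, -⟩ := exists_above hM P (le_sup_right : (P : Subgroup G) ≤ N ⊔ (P : Subgroup G)) h1
  exact ⟨χ, hχ, trans_ne le_sup_left h2 hξ⟩

theorem cjI_triv (N : Subgroup G) (hN : N.Normal) [Fintype N] (g : G) :
    cjI hN g (triv N) = triv N := Subtype.ext (funext fun n => rfl)

/-- constituents of characters of the principal block -/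
theorem below_principal (hM : IsPModular p M) (N : Subgroup G) [hN : N.Normal] [Fintype N]
    {χ : IrrCharacter G} (hχ : χ ∈ principalBlock M G) {θ : IrrCharacter N}
    (h : classInner (fun n : N => (χ : G → ℂ) n) (θ : N → ℂ) ≠ 0) : θ ∈ principalBlock M N := by
  classical
  haveI := hM.2.1
  haveI : Fintype (IrrCharacter N) := Fintype.ofFinite _
  have h0 : classInner (fun n : N => ((triv G : IrrCharacter G) : G → ℂ) n)
      ((triv N : IrrCharacter N) : N → ℂ) ≠ 0 := by
    have h0 := ci_irr_self (triv N).2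
    intro h
    have h2 : classInner ((triv N : IrrCharacter N) : N → ℂ) ((triv N : IrrCharacter N) : N → ℂ) = 0 := h
    rw [h2] at h0
    exact zero_ne_one h0
  obtain ⟨θ', hθ', g, hg⟩ := constituents_conj hN (principal_isPBlock (M := M) (G := G))
    (principal_isPBlock (M := M) (G := N)) triv_mem hχ triv_mem h0 h
  rw [hg]
  have h1 := sameBlock_cjI hN (block_sameBlock principal_isPBlock (triv_mem (M := M) (G := N)) hθ') g
  rw [cjI_triv] at h1
  exact block_mem_of_sameBlock principal_isPBlock triv_mem h1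

theorem s4583 (hM : IsPModular p M) (N : Subgroup G) [hN : N.Normal] [Fintype N] (P : Sylow p G)
    {θ : IrrCharacter N} (hθ : θ ∈ principalBlock M N) (hdeg : ¬ p ∣ charDegree (θ : N → ℂ))
    {η : IrrCharacter ↥(N ⊔ (P : Subgroup G))}
    (hη : ∀ n : N, (η : ↥(N ⊔ (P : Subgroup G)) → ℂ) (Subgroup.inclusion le_sup_left n) = (θ : N → ℂ) n) :
    ∃ χ : IrrCharacter G, χ ∈ principalBlock M G ∧ ¬ p ∣ charDegree (χ : G → ℂ) ∧
      classInner (fun n : N => (χ : G → ℂ) n) (θ : N → ℂ) ≠ 0 := by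
  classical
  have h0 : (fun n : N => (η : ↥(N ⊔ (P : Subgroup G)) → ℂ) ⟨(n : G), (le_sup_left : N ≤ N ⊔ (P : Subgroup G)) n.2⟩) =
      (θ : N → ℂ) := funext fun n => hη n
  have hξ : classInner (fun n : N => (η : ↥(N ⊔ (P : Subgroup G)) → ℂ)
      ⟨(n : G), (le_sup_left : N ≤ N ⊔ (P : Subgroup G)) n.2⟩) (θ : N → ℂ) ≠ 0 := by
    rw [h0, ci_irr_self θ.2]; exact one_ne_zero
  have h1 := mem_of_index hM le_sup_left le_Nm_normal (relIndex_sylow P N) hθ hξ
  have hd : charDegree (η : ↥(N ⊔ (P : Subgroup G)) → ℂ) = charDegree (θ : N → ℂ) := by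
    unfold charDegree
    rw [← hη 1, map_one]
  obtain ⟨χ, hχ, h2, h3⟩ := exists_above hM P (le_sup_right : (P : Subgroup G) ≤ N ⊔ (P : Subgroup G)) h1
  exact ⟨χ, hχ, h3 (hd ▸ hdeg), trans_ne le_sup_left h2 hξ⟩

theorem sum_sq_le {ι : Type*} (s : Finset ι) (f : ι → ℕ) :
    ∑ i ∈ s, f i ^ 2 ≤ (∑ i ∈ s, f i) ^ 2 := by
  rw [sq, Finset.sum_mul]
  refine Finset.sum_le_sum fun i hi => ?_
  rw [sq]
  exact Nat.mul_le_mul_left _ (Finset.single_le_sum (f := f) (fun _ _ => Nat.zero_le _) hi)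

theorem deg_res {H : Subgroup G} [Fintype H] [Fintype (IrrCharacter H)] (χ : IrrCharacter G)
    (m : IrrCharacter H → ℕ)
    (hm : ∀ θ : IrrCharacter H, classInner (fun h : H => (χ : G → ℂ) h) (θ : H → ℂ) = m θ) :
    charDegree (χ : G → ℂ) = ∑ θ : IrrCharacter H, m θ * charDegree (θ : H → ℂ) := by
  have h1 := expand_apply (fun h : H => (χ : G → ℂ) h)
    (IsChar.isClass (Brauer.IsChar.res (IsIrr.isCharacter χ.2) H)) 1
  have h2 : ((charDegree (χ : G → ℂ) : ℕ) : ℂ) =
      ((∑ θ : IrrCharacter H, m θ * charDegree (θ : H → ℂ) : ℕ) : ℂ) := by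
    rw [charDegree_eq χ.2]
    push_cast
    refine h1.trans ?_
    exact Finset.sum_congr rfl fun θ _ => by rw [hm, charDegree_eq θ.2]
  exact_mod_cast h2

theorem deg_ind {H : Subgroup G} [Fintype H] [Fintype (IrrCharacter G)] (θ : IrrCharacter H)
    (m : IrrCharacter G → ℕ)
    (hm : ∀ χ : IrrCharacter G, classInner (fun h : H => (χ : G → ℂ) h) (θ : H → ℂ) = m χ) :
    ∑ χ : IrrCharacter G, m χ * charDegree (χ : G → ℂ) = H.index * charDegree (θ : H → ℂ) := by
  have h1 := expand_apply (indFun H (θ : H → ℂ)) (Brauer.indFun_class H _) 1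
  have h2 : ((H.index * charDegree (θ : H → ℂ) : ℕ) : ℂ) =
      ((∑ χ : IrrCharacter G, m χ * charDegree (χ : G → ℂ) : ℕ) : ℂ) := by
    push_cast
    rw [charDegree_eq θ.2, ← IndCong.indFun_one, h1]
    refine Finset.sum_congr rfl fun χ _ => ?_
    rw [Brauer.frobenius H _ _ (IsIrr.isClass χ.2), ← ci_conj_symm, hm, charDegree_eq χ.2,
      Complex.conj_natCast]
  exact_mod_cast h2.symm

open Classical in
theorem s4708 (hM : IsPModular p M) (H : Subgroup G) [hN : H.Normal] [Fintype H] :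
    (∑ᶠ θ ∈ principalBlock M H, charDegree (θ : H → ℂ) ^ 2) ≤
      (∑ᶠ χ ∈ principalBlock M G, charDegree (χ : G → ℂ) ^ 2) ∧
    (∑ᶠ χ ∈ principalBlock M G, charDegree (χ : G → ℂ) ^ 2) ≤
      H.index * ∑ᶠ θ ∈ principalBlock M H, charDegree (θ : H → ℂ) ^ 2 := by
  haveI : Fintype (IrrCharacter G) := Fintype.ofFinite _
  haveI : Fintype (IrrCharacter H) := Fintype.ofFinite _
  choose m hm using fun (χ : IrrCharacter G) (θ : IrrCharacter H) => mult_nat χ θ
  have e1 : (∑ᶠ θ ∈ principalBlock M H, charDegree (θ : H → ℂ) ^ 2) =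
      ∑ θ : IrrCharacter H, if θ ∈ principalBlock M H then charDegree (θ : H → ℂ) ^ 2 else 0 :=
    finsum_mem_irr _ _
  have e2 : (∑ᶠ χ ∈ principalBlock M G, charDegree (χ : G → ℂ) ^ 2) =
      ∑ χ : IrrCharacter G, if χ ∈ principalBlock M G then charDegree (χ : G → ℂ) ^ 2 else 0 :=
    finsum_mem_irr _ _
  rw [e1, e2]
  have hz : ∀ χ ∈ principalBlock M G, ∀ θ ∉ principalBlock M H, m χ θ = 0 := by
    intro χ hχ θ hθ
    by_contra h
    exact hθ (below_principal hM H hχ (by rw [hm]; exact Nat.cast_ne_zero.2 h))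
  constructor
  · -- lower bound
    have h1 : ∀ θ : IrrCharacter H, (if θ ∈ principalBlock M H then charDegree (θ : H → ℂ) ^ 2 else 0) ≤
        ∑ χ : IrrCharacter G, if χ ∈ principalBlock M G then
          (m χ θ * charDegree (θ : H → ℂ)) ^ 2 else 0 := by
      intro θ
      split_ifs with hθ
      · obtain ⟨χ, hχ, h2⟩ := exists_over_principal hM H hθ
        rw [hm] at h2
        have h3 : 1 ≤ m χ θ := Nat.one_le_iff_ne_zero.2 (by exact_mod_cast h2)
        calc charDegree (θ : H → ℂ) ^ 2 ≤ (m χ θ * charDegree (θ : H → ℂ)) ^ 2 :=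
              Nat.pow_le_pow_left (Nat.le_mul_of_pos_left _ h3) 2
          _ = (if χ ∈ principalBlock M G then (m χ θ * charDegree (θ : H → ℂ)) ^ 2 else 0) := by
              rw [if_pos hχ]
          _ ≤ _ := Finset.single_le_sum (f := fun χ : IrrCharacter G =>
              if χ ∈ principalBlock M G then (m χ θ * charDegree (θ : H → ℂ)) ^ 2 else 0)
              (fun _ _ => Nat.zero_le _) (Finset.mem_univ χ)
      · exact Nat.zero_le _
    refine (Finset.sum_le_sum fun θ _ => h1 θ).trans ?_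
    rw [Finset.sum_comm]
    refine Finset.sum_le_sum fun χ _ => ?_
    split_ifs with hχ
    · rw [deg_res χ (m χ) (hm χ)]
      exact sum_sq_le Finset.univ _
    · simp
  · -- upper bound
    have h1 : ∀ χ : IrrCharacter G, (if χ ∈ principalBlock M G then charDegree (χ : G → ℂ) ^ 2 else 0) ≤
        ∑ θ : IrrCharacter H, if θ ∈ principalBlock M H then
          charDegree (θ : H → ℂ) * (m χ θ * charDegree (χ : G → ℂ)) else 0 := by
      intro χ
      split_ifs with hχ
      · have h2 := deg_res χ (m χ) (hm χ)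
        rw [sq]
        conv_lhs => rw [h2]
        rw [h2, Finset.sum_mul]
        refine Finset.sum_le_sum fun θ _ => ?_
        split_ifs with hθ
        · rw [← h2]
          exact le_of_eq (by ring)
        · rw [hz χ hχ θ hθ]; simp
      · exact Nat.zero_le _
    refine (Finset.sum_le_sum fun χ _ => h1 χ).trans ?_
    rw [Finset.sum_comm, Finset.mul_sum]
    refine Finset.sum_le_sum fun θ _ => ?_
    by_cases hθ : θ ∈ principalBlock M H
    · simp only [if_pos hθ]
      rw [← Finset.mul_sum, deg_ind θ (fun χ => m χ θ) (fun χ => hm χ θ)]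
      exact le_of_eq (by ring)
    · simp [hθ]

end blocks

end Cfsg.Agent.H25.PS2
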