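import Mathlib
import Cfsg.Agent.H25_BPInd
import Cfsg.Agent.H25_BlockReg3
import Cfsg.Agent.H2_Fusion3

/-!
# Principal block: nilpotent iff normal `p`-complement iff rank one
-/

set_option autoImplicit false
set_option linter.unusedSectionVars false
set_option linter.style.haveILetI false

namespace Cfsg.Agent.H25.Princ

open Cfsg Cfsg.Agent.H25.Red Cfsg.Agent.H25.KG Cfsg.Agent.H25.BPTr Cfsg.Agent.H25.BPMain
  Cfsg.Agent.H25.BPDef Cfsg.Agent.H25.BPInd Cfsg.Agent.H10.BlockKer Cfsg.Agent.H10.BlockIdem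

variable {M : Ideal AlgInt} {G : Type*} [Group G] [Fintype G] {p : ℕ} [hp : Fact p.Prime]

theorem npc_of_nilp (hM : IsPModular p M) (h : IsNilpotentBlock p M (principalBlock M G)) :
    HasNormalPComplement p G := by
  have := hM.2.1
  have := charP_KM M hM
  apply H2.Fusion3.npc_of_frobenius
  intro Q hQ g hg hgp
  have hpr : IsPBlock M (principalBlock M (Ce Q)) := by
    haveI : Fintype (Ce Q) := Fintype.ofFinite _
    exact principal_isPBlock
  have h1 : IsBrauerPairOf p M (principalBlock M G) Q (principalBlock M (Ce Q)) := (third hM hQ hpr).2 rfl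
  refine h.2 Q _ h1 g hg ?_ ?_
  · rw [stabilizes_iff hpr]
    refine ⟨norm_le_norm_Ce Q hg, ?_⟩
    have h2 := (bpo_iff.1 h1).2.2.cnj g
    have hgQ : cs g Q = Q := mem_normalizer_iff_cs.1 hg
    rw [hgQ] at h2
    obtain ⟨f', hf', h3⟩ := exists_ep h2.be
    rw [← h3] at h2 ⊢
    have h4 : IsBrauerPairOf p M (principalBlock M G) Q f' := bpo_iff.2 ⟨principal_isPBlock, hf', h2⟩
    rw [(third hM hQ hf').1 h4]
  · intro hd
    exact (Nat.Prime.coprime_iff_not_dvd hp.out).1 hgp.symm hd

theorem nilp_of_npc (hM : IsPModular p M) (h : HasNormalPComplement p G) :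
    IsNilpotentBlock p M (principalBlock M G) := by
  have := hM.2.1
  refine ⟨principal_isPBlock, ?_⟩
  intro Q e hQ x hx _ hxp
  exact H2.Fusion3.mem_centralizer_of_npc h Q hQ.1.1 x hx ((Nat.Prime.coprime_iff_not_dvd hp.out).2 hxp).symm

theorem npc_of_rank (hM : IsPModular p M) (h : blockRank p (principalBlock M G) = 1) :
    HasNormalPComplement p G := by
  have := hM.2.1
  have hB : IsPBlock M (principalBlock M G) := principal_isPBlock
  rw [H2.Basic.npc_iff]
  have hKn := kerB_normal (principalBlock M G)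
  refine ⟨kerB (principalBlock M G), hKn, kerB_coprime hM hB, ?_⟩
  have hreg : ∀ x : G, ¬ p ∣ orderOf x → x ∈ kerB (principalBlock M G) := by
    intro x hx χ hχ
    have h1 := H25.BlockReg3.prop_of_rank_one h hχ (triv_mem (M := M)) x
    rw [H25.BlockReg3.pReg_apply, H25.BlockReg3.pReg_apply, if_neg hx, if_neg hx, triv_coe, triv_coe, div_one, mul_one] at h1
    exact h1
  have hpg : IsPGroup p (G ⧸ kerB (principalBlock M G)) := by
    intro q
    obtain ⟨g, rfl⟩ := QuotientGroup.mk'_surjective _ q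
    refine ⟨(orderOf g).factorization p, ?_⟩
    rw [← map_pow, QuotientGroup.mk'_apply, QuotientGroup.eq_one_iff]
    apply hreg
    rw [orderOf_pow_of_dvd (pow_ne_zero _ hp.out.ne_zero) (Nat.ordProj_dvd _ _)]
    exact Nat.not_dvd_ordCompl hp.out (orderOf_pos g).ne'
  rw [Subgroup.index_eq_card]
  exact IsPGroup.iff_card.1 hpg

theorem rank_of_npc (hM : IsPModular p M) (h : HasNormalPComplement p G) :
    blockRank p (principalBlock M G) = 1 := by
  have := hM.2.1
  obtain ⟨N, hN, hNp, k, hk⟩ := H2.Basic.npc_iff.1 h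
  have h1 : ∀ χ ∈ principalBlock M G, pRegularPart p (χ : G → ℂ) =
      ((χ : G → ℂ) 1) • pRegularPart p ((triv G : IrrCharacter G) : G → ℂ) := by
    intro χ hχ
    ext x
    rw [Pi.smul_apply, H25.BlockReg3.pReg_apply, H25.BlockReg3.pReg_apply]
    by_cases hx : p ∣ orderOf x
    · rw [if_pos hx, if_pos hx, smul_zero]
    · rw [if_neg hx, if_neg hx, triv_coe, smul_eq_mul, mul_one]
      exact principal_ker hM N hNp hχ x (regular_mem hp.out ⟨k, hk⟩ hx)
  have h2 : Submodule.span ℂ ((fun χ : IrrCharacter G => pRegularPart p (χ : G → ℂ)) '' principalBlock M G) =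
      Submodule.span ℂ {pRegularPart p ((triv G : IrrCharacter G) : G → ℂ)} := by
    apply le_antisymm
    · rw [Submodule.span_le]
      rintro _ ⟨χ, hχ, rfl⟩
      show pRegularPart p (χ : G → ℂ) ∈ _
      rw [h1 χ hχ]
      exact Submodule.smul_mem _ _ (Submodule.mem_span_singleton_self _)
    · apply Submodule.span_mono
      rw [Set.singleton_subset_iff]
      exact ⟨triv G, triv_mem, rfl⟩
  rw [blockRank, h2]
  apply finrank_span_singleton
  intro h3
  have h4 := congrFun h3 1
  rw [H25.BlockReg3.pReg_apply, if_neg (by rw [orderOf_one]; exact hp.out.one_lt.ne' ∘ Nat.dvd_one.1), triv_coe] at h4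
  exact one_ne_zero h4

end Cfsg.Agent.H25.Princ
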