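import Cfsg.Agent.H25_STs
import Cfsg.Agent.H25_NilpAb
import Cfsg.Agent.H25_IndQ

/-! Number of Brauer characters of a block idempotent of a subgroup. -/

set_option autoImplicit false
set_option linter.unusedSectionVars false

namespace Cfsg.Agent.H25.Rk

open Cfsg Cfsg.Agent.H3.CharIrr Cfsg.Agent.H25.Red Cfsg.Agent.H25.KG Cfsg.Agent.H25.BPTr Cfsg.Agent.H25.BPMain
  Cfsg.Agent.H25.BPDef Cfsg.Agent.H25.Fus Cfsg.Agent.H25.Nilp Cfsg.Agent.H25.NilpAb Cfsg.Agent.H25.ExtFMT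
  Cfsg.Agent.H25.FMT Cfsg.Agent.H25.AbSec Cfsg.Agent.H25.Up Cfsg.Agent.H25.Rel Cfsg.Agent.H25.BlockReg3
  Cfsg.Agent.H10.BlockAlg

section iso
variable {K L : Type*} [Group K] [Group L] {p : ℕ}

theorem rank_tB (e : K ≃* L) (b : Set (IrrCharacter K)) : blockRank p (tB e b) = blockRank p b := by
  classical
  let Φ : (K → ℂ) ≃ₗ[ℂ] (L → ℂ) := LinearEquiv.funCongrLeft ℂ ℂ e.symm.toEquiv
  have h1 : ∀ ξ : IrrCharacter K, ∀ ξ' : IrrCharacter L, (∀ k, (ξ' : L → ℂ) (e k) = (ξ : K → ℂ) k) →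
      Φ (pRegularPart p (ξ : K → ℂ)) = pRegularPart p (ξ' : L → ℂ) := by
    intro ξ ξ' h
    funext l
    show pRegularPart p (ξ : K → ℂ) (e.symm l) = _
    rw [pReg_apply, pReg_apply, MulEquiv.orderOf_eq]
    split_ifs
    · rfl
    · rw [← h, MulEquiv.apply_symm_apply]
  have h2 : ((fun χ : IrrCharacter L => pRegularPart p (χ : L → ℂ)) '' (tB e b)) =
      Φ '' ((fun χ : IrrCharacter K => pRegularPart p (χ : K → ℂ)) '' b) := by
    ext f
    constructor
    · rintro ⟨χ', ⟨ξ, hξ, h⟩, rfl⟩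
      exact ⟨_, ⟨ξ, hξ, rfl⟩, h1 ξ χ' h⟩
    · rintro ⟨_, ⟨ξ, hξ, rfl⟩, rfl⟩
      refine ⟨H10.BlockEFM.tr e.symm ξ, tr_mem_tB e hξ, ?_⟩
      refine (h1 ξ _ ?_).symm
      intro k
      show (ξ : K → ℂ) (e.symm (e k)) = _
      rw [MulEquiv.symm_apply_apply]
  unfold blockRank
  rw [h2]
  have h3 : Submodule.span ℂ (Φ '' ((fun χ : IrrCharacter K => pRegularPart p (χ : K → ℂ)) '' b)) =
      (Submodule.span ℂ ((fun χ : IrrCharacter K => pRegularPart p (χ : K → ℂ)) '' b)).map (Φ : (K → ℂ) →ₗ[ℂ] (L → ℂ)) := by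
    rw [Submodule.map_span]; rfl
  rw [h3]
  exact LinearEquiv.finrank_map_eq Φ _

theorem card_tB (e : K ≃* L) (b : Set (IrrCharacter K)) : Nat.card (tB e b) = Nat.card b := by
  refine Nat.card_congr ⟨fun χ => ⟨H10.BlockEFM.tr e χ.1, (mem_tB e b χ.1).1 χ.2⟩,
    fun ξ => ⟨H10.BlockEFM.tr e.symm ξ.1, tr_mem_tB e ξ.2⟩, ?_, ?_⟩
  · intro χ
    apply Subtype.ext
    apply Subtype.ext
    funext l
    show (χ.1 : L → ℂ) (e (e.symm l)) = _
    rw [MulEquiv.apply_symm_apply]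
  · intro χ
    apply Subtype.ext
    apply Subtype.ext
    funext l
    show (χ.1 : K → ℂ) (e.symm (e l)) = _
    rw [MulEquiv.symm_apply_apply]

end iso

variable {M : Ideal AlgInt} {G : Type*} [Group G] [Fintype G] {p : ℕ} [hMax : M.IsMaximal]

open Classical in
/-- the number of Brauer characters of the block `e` of `H` -/
noncomputable def rk (p : ℕ) (H : Subgroup G) (e : MonoidAlgebra (KM M) G) : ℕ :=
  if h : IsBlk H e then blockRank p (exists_ep h).choose else 0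

open Classical in
/-- the number of ordinary characters of the block `e` of `H` -/
noncomputable def kd (H : Subgroup G) (e : MonoidAlgebra (KM M) G) : ℕ :=
  if h : IsBlk H e then Nat.card (exists_ep h).choose else 0

theorem rk_ep {H : Subgroup G} {b : Set (IrrCharacter H)} (hb : IsPBlock M b) :
    rk p H (ep M H b) = blockRank p b := by
  have h := isBlk_ep (M := M) hb
  have h1 := (exists_ep h).choose_spec
  unfold rk
  rw [dif_pos h, ep_inj h1.1 hb h1.2]

theorem kd_ep {H : Subgroup G} {b : Set (IrrCharacter H)} (hb : IsPBlock M b) :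
    kd H (ep M H b) = Nat.card b := by
  have h := isBlk_ep (M := M) hb
  have h1 := (exists_ep h).choose_spec
  unfold kd
  rw [dif_pos h, ep_inj h1.1 hb h1.2]

theorem rk_cs {H : Subgroup G} {e : MonoidAlgebra (KM M) G} (he : IsBlk H e) (x : G) :
    rk p (cs x H) (KG.cnj x e) = rk p H e := by
  obtain ⟨b, hb, rfl⟩ := exists_ep he
  rw [rk_ep hb, ← ep_conj x rfl b, rk_ep (isPBlock_tB _ hb), rank_tB]

theorem kd_cs {H : Subgroup G} {e : MonoidAlgebra (KM M) G} (he : IsBlk H e) (x : G) :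
    kd (cs x H) (KG.cnj x e) = kd H e := by
  obtain ⟨b, hb, rfl⟩ := exists_ep he
  rw [kd_ep hb, ← ep_conj x rfl b, kd_ep (isPBlock_tB _ hb), card_tB]

section up
variable {H : Subgroup G} [Fintype H]

/-- `K` and its image -/
noncomputable def mI (K : Subgroup H) : K ≃* (K.map H.subtype : Subgroup G) :=
  K.equivMapOfInjective H.subtype H.subtype_injective

theorem mI_coe (K : Subgroup H) (k : K) : ((mI K k : (K.map H.subtype : Subgroup G)) : G) = ((k : H) : G) := rfl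

theorem up_ep' (K : Subgroup H) (b : Set (IrrCharacter K)) :
    up (KM M) H (ep M K b) = ep M (K.map H.subtype) (tB (mI K) b) := by
  apply KG.ext_c
  intro x
  by_cases hx : x ∈ K.map H.subtype
  · obtain ⟨k, hk, rfl⟩ := hx
    have h1 : ((k : H) : G) ∈ K.map H.subtype := ⟨k, hk, rfl⟩
    rw [ep_c, show H.subtype k = (k : G) from rfl, sbc_mem _ h1]
    rw [up_c, ep_c, sbc_mem b hk]
    have h2 : (⟨((k : H) : G), h1⟩ : (K.map H.subtype : Subgroup G)) = mI K ⟨k, hk⟩ := Subtype.ext rfl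
    rw [h2, blockCoeff_tB]
  · rw [ep_c, sbc_notMem _ hx]
    by_cases hxH : x ∈ H
    · rw [up_c' _ hxH, ep_c, sbc_notMem b]
      intro h
      exact hx ⟨⟨x, hxH⟩, h, rfl⟩
    · rw [up_c_not _ hxH, rd_zero]

theorem rk_up {K : Subgroup H} {a : MonoidAlgebra (KM M) H} (ha : IsBlk K a) :
    rk p (K.map H.subtype) (up (KM M) H a) = rk p K a := by
  obtain ⟨b, hb, rfl⟩ := exists_ep ha
  rw [up_ep', rk_ep hb, rk_ep (isPBlock_tB _ hb), rank_tB]

theorem kd_up {K : Subgroup H} {a : MonoidAlgebra (KM M) H} (ha : IsBlk K a) :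
    kd (K.map H.subtype) (up (KM M) H a) = kd K a := by
  obtain ⟨b, hb, rfl⟩ := exists_ep ha
  rw [up_ep', kd_ep hb, kd_ep (isPBlock_tB _ hb), card_tB]

end up

theorem ep_top (B : Set (IrrCharacter G)) : ep M (⊤ : Subgroup G) (tB Subgroup.topEquiv.symm B) = epG M B := by
  apply KG.ext_c
  intro x
  rw [ep_c, sbc_mem _ (Subgroup.mem_top x), epG_c]
  have h2 : (⟨x, Subgroup.mem_top x⟩ : (⊤ : Subgroup G)) = Subgroup.topEquiv.symm x := rfl
  rw [h2, blockCoeff_tB]

theorem rk_top {B : Set (IrrCharacter G)} (hB : IsPBlock M B) : rk p (⊤ : Subgroup G) (epG M B) = blockRank p B := by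
  rw [← ep_top, rk_ep (isPBlock_tB _ hB), rank_tB]

theorem kd_top {B : Set (IrrCharacter G)} (hB : IsPBlock M B) : kd (⊤ : Subgroup G) (epG M B) = Nat.card B := by
  rw [← ep_top, kd_ep (isPBlock_tB _ hB), card_tB]

end Cfsg.Agent.H25.Rk
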