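import Cfsg.Agent.H25_Whi
import Cfsg.Agent.H15_Bruhat
import Cfsg.Agent.H5_GL

/-! Unitriangular and triangular subgroups of `SL_n`, Bruhat decomposition. -/

set_option autoImplicit false
set_option linter.unusedSectionVars false

namespace Cfsg.Agent.H25.SLa

open Matrix Cfsg.Agent.H15.Bruhat Cfsg.Agent.H25.STo

variable {F : Type*} [Field F] {n : ℕ}

theorem diag_mul {A B : Matrix (Fin n) (Fin n) F} (hA : A.BlockTriangular id) (hB : B.BlockTriangular id) (k : Fin n) :
    (A * B) k k = A k k * B k k := by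
  rw [Matrix.mul_apply, Finset.sum_eq_single_of_mem k (Finset.mem_univ _)]
  intro j _ hj
  rcases lt_or_gt_of_ne hj with h | h
  · rw [hA (show id j < id k from h), zero_mul]
  · rw [hB (show id k < id j from h), mul_zero]

theorem super_mul {A B : Matrix (Fin n) (Fin n) F} (hA : A.BlockTriangular id) (hB : B.BlockTriangular id) {i j : Fin n}
    (hij : (j : ℕ) = i + 1) : (A * B) i j = A i i * B i j + A i j * B j j := by
  have hne : i ≠ j := by intro h; rw [h] at hij; omega
  rw [Matrix.mul_apply, ← Finset.sum_subset (Finset.subset_univ {i, j}), Finset.sum_pair hne]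
  intro k _ hk
  simp only [Finset.mem_insert, Finset.mem_singleton, not_or] at hk
  by_cases h : k < i
  · rw [hA (show id k < id i from h), zero_mul]
  · rw [hB, mul_zero]
    show j < k
    rw [Fin.lt_def] at h ⊢
    have h1 : (k : ℕ) ≠ i := fun e => hk.1 (Fin.ext e)
    have h2 : (k : ℕ) ≠ j := fun e => hk.2 (Fin.ext e)
    omega

/-- the underlying matrix -/
def mt (g : SpecialLinearGroup (Fin n) F) : Matrix (Fin n) (Fin n) F := g.1

theorem mt_mul (a b : SpecialLinearGroup (Fin n) F) : mt (a * b) = mt a * mt b := Matrix.SpecialLinearGroup.coe_mul a b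

theorem mt_one : mt (1 : SpecialLinearGroup (Fin n) F) = 1 := Matrix.SpecialLinearGroup.coe_one

theorem mt_inj {a b : SpecialLinearGroup (Fin n) F} (h : mt a = mt b) : a = b := Subtype.ext h

theorem mt_mul_inv (a : SpecialLinearGroup (Fin n) F) : mt a * mt a⁻¹ = 1 := by rw [← mt_mul, mul_inv_cancel, mt_one]

theorem mt_inv_mul (a : SpecialLinearGroup (Fin n) F) : mt a⁻¹ * mt a = 1 := by rw [← mt_mul, inv_mul_cancel, mt_one]

theorem mt_det (a : SpecialLinearGroup (Fin n) F) : (mt a).det = 1 := a.2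

/-- upper triangular matrices -/
def Bn (n : ℕ) (F : Type*) [Field F] : Subgroup (SpecialLinearGroup (Fin n) F) where
  carrier := {g | (mt g).BlockTriangular id}
  mul_mem' {a b} ha hb := by
    show (mt (a * b)).BlockTriangular id
    rw [mt_mul]
    exact BlockTriangular.mul ha hb
  one_mem' := by
    show (mt 1).BlockTriangular id
    rw [mt_one]
    exact blockTriangular_one
  inv_mem' {x} hx := by
    show (mt x⁻¹).BlockTriangular id
    have h1 : mt x⁻¹ = (mt x)⁻¹ := (Matrix.inv_eq_right_inv (mt_mul_inv x)).symm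
    rw [h1]
    haveI : Invertible (mt x) := ⟨mt x⁻¹, mt_inv_mul x, mt_mul_inv x⟩
    exact blockTriangular_inv_of_blockTriangular hx

theorem mem_Bn {g : SpecialLinearGroup (Fin n) F} : g ∈ Bn n F ↔ (mt g).BlockTriangular id := Iff.rfl

/-- the diagonal -/
def dg (n : ℕ) (F : Type*) [Field F] : Bn n F →* (Fin n → F) where
  toFun g k := mt (g : SpecialLinearGroup (Fin n) F) k k
  map_one' := by
    funext k
    rw [Subgroup.coe_one, mt_one, one_apply_eq]; rfl
  map_mul' a b := by
    funext k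
    rw [Subgroup.coe_mul, mt_mul, diag_mul a.2 b.2]
    rfl

/-- upper unitriangular matrices -/
def Un (n : ℕ) (F : Type*) [Field F] : Subgroup (SpecialLinearGroup (Fin n) F) := (dg n F).ker.map (Bn n F).subtype

theorem mem_Un {g : SpecialLinearGroup (Fin n) F} :
    g ∈ Un n F ↔ (mt g).BlockTriangular id ∧ ∀ k, mt g k k = 1 := by
  constructor
  · rintro ⟨b, hb, rfl⟩
    exact ⟨b.2, fun k => congrFun (MonoidHom.mem_ker.1 hb) k⟩
  · rintro ⟨h1, h2⟩
    exact ⟨⟨g, h1⟩, MonoidHom.mem_ker.2 (funext h2), rfl⟩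

theorem Un_le : Un n F ≤ Bn n F := Subgroup.map_subtype_le _

theorem Un_subgroupOf : (Un n F).subgroupOf (Bn n F) = (dg n F).ker := by
  rw [Un, Subgroup.subgroupOf, Subgroup.comap_map_eq_self_of_injective (Subgroup.subtype_injective _)]

theorem comm_le : commutator (Bn n F) ≤ (Un n F).subgroupOf (Bn n F) := by
  rw [Un_subgroupOf, commutator_def, Subgroup.commutator_le]
  intro a _ b _
  rw [MonoidHom.mem_ker, commutatorElement_def, map_mul, map_mul, map_mul]
  have h1 : dg n F a * dg n F a⁻¹ = 1 := by rw [← map_mul, mul_inv_cancel, map_one]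
  have h2 : dg n F b * dg n F b⁻¹ = 1 := by rw [← map_mul, mul_inv_cancel, map_one]
  calc dg n F a * dg n F b * dg n F a⁻¹ * dg n F b⁻¹ = (dg n F a * dg n F a⁻¹) * (dg n F b * dg n F b⁻¹) := by ring
    _ = 1 := by rw [h1, h2, one_mul]

/-- sum of the superdiagonal entries -/
noncomputable def ss (A : Matrix (Fin n) (Fin n) F) : F := ∑ i : Fin n, ∑ j : Fin n, if (j : ℕ) = i + 1 then A i j else 0

theorem ss_mul {A B : Matrix (Fin n) (Fin n) F} (hA : A.BlockTriangular id) (hB : B.BlockTriangular id)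
    (hA1 : ∀ k, A k k = 1) (hB1 : ∀ k, B k k = 1) : ss (A * B) = ss A + ss B := by
  unfold ss
  rw [← Finset.sum_add_distrib]
  refine Finset.sum_congr rfl fun i _ => ?_
  rw [← Finset.sum_add_distrib]
  refine Finset.sum_congr rfl fun j _ => ?_
  split_ifs with h
  · rw [super_mul hA hB h, hA1, hB1]; ring
  · simp

theorem ss_one : ss (1 : Matrix (Fin n) (Fin n) F) = 0 := by
  unfold ss
  refine Finset.sum_eq_zero fun i _ => Finset.sum_eq_zero fun j _ => ?_
  split_ifs with h
  · rw [one_apply_ne]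
    intro e; rw [e] at h; omega
  · rfl

/-- the nondegenerate character -/
noncomputable def psi (e : AddChar F ℂ) : Un n F →* ℂˣ :=
  MonoidHom.toHomUnits
    { toFun := fun u => e (ss (mt (u : SpecialLinearGroup (Fin n) F)))
      map_one' := by
        rw [Subgroup.coe_one, mt_one, ss_one, AddChar.map_zero_eq_one]
      map_mul' := by
        intro a b
        rw [Subgroup.coe_mul, mt_mul, ss_mul (mem_Un.1 a.2).1 (mem_Un.1 b.2).1 (mem_Un.1 a.2).2
          (mem_Un.1 b.2).2, AddChar.map_add_eq_mul] }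

theorem psi_coe (e : AddChar F ℂ) (u : Un n F) : ((psi e u : ℂˣ) : ℂ) = e (ss (mt (u : SpecialLinearGroup (Fin n) F))) := rfl

theorem pm_mul_apply (σ : Equiv.Perm (Fin n)) (A : Matrix (Fin n) (Fin n) F) (i j : Fin n) :
    (pm F σ * A) i j = A (σ⁻¹ i) j := by
  rw [Matrix.mul_apply, Finset.sum_eq_single_of_mem (σ⁻¹ i) (Finset.mem_univ _)]
  · rw [pm_apply, if_pos (by simp), one_mul]
  · intro k _ hk
    rw [pm_apply, if_neg, zero_mul]
    rintro rfl
    exact hk (by simp)

theorem mul_pm_apply (σ : Equiv.Perm (Fin n)) (A : Matrix (Fin n) (Fin n) F) (i j : Fin n) :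
    (A * pm F σ) i j = A i (σ j) := by
  rw [Matrix.mul_apply, Finset.sum_eq_single_of_mem (σ j) (Finset.mem_univ _)]
  · rw [pm_apply, if_pos rfl, mul_one]
  · intro k _ hk
    rw [pm_apply, if_neg hk, mul_zero]

theorem pm_isUnit (σ : Equiv.Perm (Fin n)) : IsUnit (pm F σ) := by
  refine isUnit_iff_exists.mpr ⟨pm F σ⁻¹, ?_, ?_⟩
  · rw [← pm_mul, mul_inv_cancel, pm_one]
  · rw [← pm_mul, inv_mul_cancel, pm_one]

theorem diag_pm (σ : Equiv.Perm (Fin n)) (d : Fin n → F) :
    diagonal d * pm F σ = pm F σ * diagonal (fun k => d (σ k)) := by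
  ext i j
  rw [mul_pm_apply, mul_diagonal, diagonal_apply, pm_apply]
  split_ifs with h
  · rw [h, one_mul]
  · simp

theorem isUnit_mt (g : SpecialLinearGroup (Fin n) F) : IsUnit (mt g) := by
  rw [Matrix.isUnit_iff_isUnit_det, mt_det]; exact isUnit_one

theorem tri_diag_ne {b : Matrix (Fin n) (Fin n) F} (hb : b.BlockTriangular id) (hu : IsUnit b) (k : Fin n) : b k k ≠ 0 := by
  rw [Matrix.isUnit_iff_isUnit_det, det_of_upperTriangular hb, isUnit_iff_ne_zero, Finset.prod_ne_zero_iff] at hu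
  exact hu k (Finset.mem_univ _)

theorem bruhat (g : SpecialLinearGroup (Fin n) F) : ∃ u ∈ Un n F, ∃ (w : Equiv.Perm (Fin n)) (b : Matrix (Fin n) (Fin n) F),
    IsUnit b ∧ b.BlockTriangular id ∧ mt g = mt u * pm F w * b := by
  obtain ⟨b, b', w, hb, hb', tb, tb', e⟩ := bruhat_mat n (mt g) (isUnit_mt g)
  have hd := tri_diag_ne tb hb
  set u0 : Matrix (Fin n) (Fin n) F := b * diagonal (fun k => (b k k)⁻¹) with hu0
  have htri : u0.BlockTriangular id := tb.mul (blockTriangular_diagonal _)
  have hdiag : ∀ k, u0 k k = 1 := by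
    intro k
    rw [hu0, mul_diagonal, mul_inv_cancel₀ (hd k)]
  have hdet : u0.det = 1 := by
    rw [det_of_upperTriangular htri]
    exact Finset.prod_eq_one fun k _ => hdiag k
  refine ⟨⟨u0, hdet⟩, mem_Un.2 ⟨htri, hdiag⟩, w, diagonal (fun k => b (w k) (w k)) * b', ?_, ?_, ?_⟩
  · refine IsUnit.mul ?_ hb'
    rw [Matrix.isUnit_iff_isUnit_det, det_diagonal, isUnit_iff_ne_zero, Finset.prod_ne_zero_iff]
    exact fun k _ => hd _
  · exact (blockTriangular_diagonal _).mul tb'
  · show mt g = u0 * pm F w * _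
    rw [← Matrix.mul_assoc, Matrix.mul_assoc u0, ← diag_pm w (fun k => b k k), ← Matrix.mul_assoc, hu0, Matrix.mul_assoc b,
      diagonal_mul_diagonal]
    have : (fun i => (b i i)⁻¹ * b i i) = fun _ => (1 : F) := by
      funext i; rw [inv_mul_cancel₀ (hd i)]
    rw [this, diagonal_one, Matrix.mul_one, e]

/-- a permutation without ascents is the reversal -/
theorem rev_of (w : Equiv.Perm (Fin n)) (h : ∀ i j : Fin n, (j : ℕ) = i + 1 → w j < w i) (i : Fin n) : w i = Fin.rev i := by
  have h1 : StrictAnti w := by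
    intro i j hij
    have key : ∀ k : ℕ, ∀ i j : Fin n, (j : ℕ) = i + 1 + k → w j < w i := by
      intro k
      induction k with
      | zero => intro i j e; exact h i j (by omega)
      | succ k ih =>
        intro i j e
        have hj : (j : ℕ) - 1 < n := by omega
        exact (h ⟨(j : ℕ) - 1, hj⟩ j (by simp; omega)).trans (ih i ⟨(j : ℕ) - 1, hj⟩ (by simp; omega))
    rw [Fin.lt_def] at hij
    exact key (j - i - 1) i j (by omega)
  have h2 : StrictMono (fun i => w (Fin.rev i)) := fun i j hij => h1 (Fin.rev_lt_rev.2 hij)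
  have h3 : (fun i => w (Fin.rev i)) = id := by
    have h4 := Subsingleton.elim (OrderIso.ofSurjective (OrderEmbedding.ofStrictMono _ h2)
      (w.surjective.comp Fin.rev_surjective)) (OrderIso.refl (Fin n))
    funext i
    exact congrArg (fun e : Fin n ≃o Fin n => e i) h4
  have h5 := congrFun h3 (Fin.rev i)
  simp only [Fin.rev_rev, id] at h5
  exact h5

/-- the transvection as a matrix -/
theorem mt_tv {i j : Fin n} (hij : i ≠ j) (a : F) :
    mt (SpecialLinearGroup.transvection hij a) = 1 + Matrix.single i j a := SpecialLinearGroup.transvection_coe hij a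

theorem tv_mem {i j : Fin n} (hij : i < j) (a : F) : SpecialLinearGroup.transvection hij.ne a ∈ Un n F := by
  rw [mem_Un, mt_tv]
  constructor
  · intro k l hkl
    have hkl' : l < k := hkl
    rw [Matrix.add_apply, one_apply_ne hkl'.ne', zero_add, single_apply, if_neg]
    rintro ⟨rfl, rfl⟩
    exact absurd hkl (not_lt.2 hij.le)
  · intro k
    rw [Matrix.add_apply, one_apply_eq, single_apply, if_neg, add_zero]
    rintro ⟨rfl, h⟩
    exact hij.ne h.symm

theorem ss_tv {i j : Fin n} (hij : (j : ℕ) = i + 1) (hne : i ≠ j) (a : F) : ss (mt (SpecialLinearGroup.transvection hne a)) = a := by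
  rw [mt_tv]
  unfold ss
  rw [Finset.sum_eq_single_of_mem i (Finset.mem_univ _), Finset.sum_eq_single_of_mem j (Finset.mem_univ _)]
  · rw [if_pos hij, Matrix.add_apply, one_apply_ne hne, single_apply, if_pos ⟨rfl, rfl⟩, zero_add]
  · intro k _ hk
    rw [if_neg]
    intro h
    exact hk (Fin.ext (by omega))
  · intro k _ hk
    refine Finset.sum_eq_zero fun l _ => ?_
    split_ifs with h
    · rw [Matrix.add_apply, single_apply, if_neg (fun e => hk e.1.symm), add_zero, one_apply_ne]
      rintro rfl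
      omega
    · rfl

theorem single_pm (w : Equiv.Perm (Fin n)) (i j : Fin n) (a : F) :
    Matrix.single i j a * pm F w = pm F w * Matrix.single (w⁻¹ i) (w⁻¹ j) a := by
  ext k l
  rw [mul_pm_apply, pm_mul_apply, single_apply, single_apply]
  have h1 : (i = k ∧ j = w l) ↔ (w⁻¹ i = w⁻¹ k ∧ w⁻¹ j = l) := by
    rw [Equiv.Perm.inv_eq_iff_eq (f := w) (x := j)]
    simp
  simp only [h1]

variable (e : AddChar F ℂ)

/-- the first alternative -/
theorem big1 (he : e 1 ≠ 1) {g : SpecialLinearGroup (Fin n) F} {u : SpecialLinearGroup (Fin n) F} (hu : u ∈ Un n F)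
    {w : Equiv.Perm (Fin n)} {b : Matrix (Fin n) (Fin n) F} (hb : IsUnit b) (tb : b.BlockTriangular id)
    (hg : mt g = mt u * pm F w * b) {i j : Fin n} (hij : (j : ℕ) = i + 1) (hw : w⁻¹ i < w⁻¹ j) :
    ∃ x, ∃ hx : x ∈ Un n F, g⁻¹ * x * g ∈ Un n F ∧ psi e ⟨x, hx⟩ ≠ 1 := by
  have hlt : i < j := by rw [Fin.lt_def]; omega
  set t := SpecialLinearGroup.transvection hlt.ne (1 : F) with ht
  have htU : t ∈ Un n F := tv_mem hlt 1
  have hx : u * t * u⁻¹ ∈ Un n F := (Un n F).mul_mem ((Un n F).mul_mem hu htU) ((Un n F).inv_mem hu)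
  refine ⟨u * t * u⁻¹, hx, ?_, ?_⟩
  · -- the conjugate
    haveI := hb.invertible
    have tbi : (b⁻¹).BlockTriangular id := blockTriangular_inv_of_blockTriangular tb
    have hbb : b⁻¹ * b = 1 := Matrix.nonsing_inv_mul b ((Matrix.isUnit_iff_isUnit_det b).1 hb)
    have hbb' : b * b⁻¹ = 1 := Matrix.mul_nonsing_inv b ((Matrix.isUnit_iff_isUnit_det b).1 hb)
    set h := 1 + Matrix.single (w⁻¹ i) (w⁻¹ j) (1 : F) with hh
    have hth : mt t * pm F w = pm F w * h := by
      rw [ht, mt_tv, add_mul, single_pm, hh, mul_add, one_mul, mul_one]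
    have thh : h.BlockTriangular id := by
      intro k l hkl
      have hkl' : l < k := hkl
      rw [hh, Matrix.add_apply, one_apply_ne hkl'.ne', zero_add, single_apply, if_neg]
      rintro ⟨rfl, rfl⟩
      exact absurd hkl (not_lt.2 hw.le)
    have hk1 : ∀ k, h k k = 1 := by
      intro k
      rw [hh, Matrix.add_apply, one_apply_eq, single_apply, if_neg, add_zero]
      rintro ⟨rfl, h'⟩
      exact hw.ne h'.symm
    have hY : mt (g⁻¹ * (u * t * u⁻¹) * g) = b⁻¹ * h * b := by
      have h1 : mt g * mt (g⁻¹ * (u * t * u⁻¹) * g) = mt g * (b⁻¹ * h * b) := by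
        rw [← mt_mul]
        have e1 : g * (g⁻¹ * (u * t * u⁻¹) * g) = u * t * u⁻¹ * g := by group
        rw [e1, mt_mul, mt_mul, mt_mul, hg]
        calc mt u * mt t * mt u⁻¹ * (mt u * pm F w * b) = mt u * mt t * (mt u⁻¹ * mt u) * pm F w * b := by
              simp only [Matrix.mul_assoc]
          _ = mt u * (mt t * pm F w) * b := by rw [mt_inv_mul, Matrix.mul_one]; simp only [Matrix.mul_assoc]
          _ = mt u * (pm F w * h) * b := by rw [hth]
          _ = mt u * pm F w * (b * b⁻¹) * h * b := by rw [hbb', Matrix.mul_one]; simp only [Matrix.mul_assoc]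
          _ = _ := by simp only [Matrix.mul_assoc]
      have h2 := congrArg (fun A => mt g⁻¹ * A) h1
      simp only [← Matrix.mul_assoc, mt_inv_mul, Matrix.one_mul] at h2
      rw [h2]
    rw [mem_Un, hY]
    refine ⟨(tbi.mul thh).mul tb, fun k => ?_⟩
    rw [diag_mul (tbi.mul thh) tb, diag_mul tbi thh, hk1, mul_one, ← diag_mul tbi tb, hbb, one_apply_eq]
  · have h1 : (⟨u * t * u⁻¹, hx⟩ : Un n F) = ⟨u, hu⟩ * ⟨t, htU⟩ * ⟨u, hu⟩⁻¹ := rfl
    rw [h1, map_mul, map_mul, map_inv, mul_comm (psi e ⟨u, hu⟩), mul_inv_cancel_right]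
    intro h2
    apply he
    have h3 := congrArg Units.val h2
    rw [psi_coe] at h3
    rw [ss_tv hij hlt.ne] at h3
    exact h3

/-- the second alternative -/
theorem big2 {g g0 : SpecialLinearGroup (Fin n) F} {u u0 : SpecialLinearGroup (Fin n) F} (hu : u ∈ Un n F) (hu0 : u0 ∈ Un n F)
    {w : Equiv.Perm (Fin n)} (hw : ∀ i, w i = Fin.rev i) {b b0 : Matrix (Fin n) (Fin n) F} (hb : IsUnit b)
    (tb : b.BlockTriangular id) (hb0 : IsUnit b0) (tb0 : b0.BlockTriangular id)
    (hg : mt g = mt u * pm F w * b) (hg0 : mt g0 = mt u0 * pm F w * b0) :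
    (∃ v ∈ Un n F, ∃ c ∈ Bn n F, g = v * g0 * c) ∧ ∀ x ∈ Un n F, g⁻¹ * x * g ∈ Un n F → x = 1 := by
  constructor
  · refine ⟨u * u0⁻¹, (Un n F).mul_mem hu ((Un n F).inv_mem hu0), g0⁻¹ * (u * u0⁻¹)⁻¹ * g, ?_, by group⟩
    haveI := hb0.invertible
    have tbi : (b0⁻¹).BlockTriangular id := blockTriangular_inv_of_blockTriangular tb0
    have hbb' : b0 * b0⁻¹ = 1 := Matrix.mul_nonsing_inv b0 ((Matrix.isUnit_iff_isUnit_det b0).1 hb0)
    have hY : mt (g0⁻¹ * (u * u0⁻¹)⁻¹ * g) = b0⁻¹ * b := by
      have h1 : mt g0 * mt (g0⁻¹ * (u * u0⁻¹)⁻¹ * g) = mt g0 * (b0⁻¹ * b) := by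
        rw [← mt_mul]
        have e1 : g0 * (g0⁻¹ * (u * u0⁻¹)⁻¹ * g) = u0 * u⁻¹ * g := by group
        rw [e1, mt_mul, mt_mul, hg, hg0]
        calc mt u0 * mt u⁻¹ * (mt u * pm F w * b) = mt u0 * (mt u⁻¹ * mt u) * pm F w * b := by simp only [Matrix.mul_assoc]
          _ = mt u0 * pm F w * (b0 * b0⁻¹) * b := by rw [mt_inv_mul, hbb', Matrix.mul_one, Matrix.mul_one]
          _ = _ := by simp only [Matrix.mul_assoc]
      have h2 := congrArg (fun A => mt g0⁻¹ * A) h1
      simp only [← Matrix.mul_assoc, mt_inv_mul, Matrix.one_mul] at h2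
      rw [h2]
    rw [mem_Bn, hY]
    exact tbi.mul tb
  · intro x hx hxg
    haveI := hb.invertible
    have tbi : (b⁻¹).BlockTriangular id := blockTriangular_inv_of_blockTriangular tb
    have hbb' : b * b⁻¹ = 1 := Matrix.mul_nonsing_inv b ((Matrix.isUnit_iff_isUnit_det b).1 hb)
    set x' := u⁻¹ * x * u with hx'
    have hx'U : x' ∈ Un n F := (Un n F).mul_mem ((Un n F).mul_mem ((Un n F).inv_mem hu) hx) hu
    set y := g⁻¹ * x * g with hy
    have h1 : mt x' * pm F w = pm F w * (b * mt y * b⁻¹) := by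
      have h2 : mt x' * (pm F w * b) = pm F w * b * mt y := by
        have h3 : mt u * (mt x' * (pm F w * b)) = mt u * (pm F w * b * mt y) := by
          have e1 : mt u * (mt x' * (pm F w * b)) = mt (x * g) := by
            rw [hx', mt_mul x g, hg, mt_mul, mt_mul]
            calc mt u * (mt u⁻¹ * mt x * mt u * (pm F w * b)) = (mt u * mt u⁻¹) * mt x * mt u * pm F w * b := by
                  simp only [Matrix.mul_assoc]
              _ = _ := by rw [mt_mul_inv, Matrix.one_mul]; simp only [Matrix.mul_assoc]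
          have e2 : mt u * (pm F w * b * mt y) = mt (g * y) := by
            rw [mt_mul g y, hg]; simp only [Matrix.mul_assoc]
          rw [e1, e2, hy]; congr 1; group
        have h4 := congrArg (fun A => mt u⁻¹ * A) h3
        simp only [← Matrix.mul_assoc, mt_inv_mul, Matrix.one_mul] at h4
        simp only [← Matrix.mul_assoc]
        exact h4
      calc mt x' * pm F w = mt x' * pm F w * (b * b⁻¹) := by rw [hbb', Matrix.mul_one]
        _ = (mt x' * (pm F w * b)) * b⁻¹ := by simp only [Matrix.mul_assoc]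
        _ = (pm F w * b * mt y) * b⁻¹ := by rw [h2]
        _ = _ := by simp only [Matrix.mul_assoc]
    have ty : (b * mt y * b⁻¹).BlockTriangular id := (tb.mul (mem_Un.1 hxg).1).mul tbi
    have hwi : ∀ i, w⁻¹ i = Fin.rev i := by
      intro i
      rw [Equiv.Perm.inv_eq_iff_eq, hw, Fin.rev_rev]
    have hx1 : x' = 1 := by
      apply mt_inj
      rw [mt_one]
      ext i k
      rcases lt_trichotomy i k with h | h | h
      · have h5 := congrFun (congrFun h1 i) (Fin.rev k)
        rw [mul_pm_apply, pm_mul_apply, hw, Fin.rev_rev, hwi] at h5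
        rw [h5, one_apply_ne h.ne]
        exact ty (show Fin.rev k < Fin.rev i from Fin.rev_lt_rev.2 h)
      · rw [h, one_apply_eq]; exact (mem_Un.1 hx'U).2 k
      · rw [one_apply_ne h.ne']; exact (mem_Un.1 hx'U).1 h
    have h6 : x = u * x' * u⁻¹ := by rw [hx']; group
    rw [h6, hx1, mul_one, mul_inv_cancel]

section count
variable [Fintype F]

/-- build a unitriangular element -/
def mkU (A : Matrix (Fin n) (Fin n) F) (hA : A.BlockTriangular id) (h1 : ∀ k, A k k = 1) : Un n F :=
  ⟨⟨A, by rw [det_of_upperTriangular hA]; exact Finset.prod_eq_one fun k _ => h1 k⟩, mem_Un.2 ⟨hA, h1⟩⟩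

theorem mt_mkU (A : Matrix (Fin n) (Fin n) F) (hA : A.BlockTriangular id) (h1 : ∀ k, A k k = 1) :
    mt (mkU A hA h1 : SpecialLinearGroup (Fin n) F) = A := rfl

/-- a unitriangular matrix with given entries -/
def um (f : {ij : Fin n × Fin n // ij.1 < ij.2} → F) : Matrix (Fin n) (Fin n) F :=
  Matrix.of fun i j => if h : i < j then f ⟨(i, j), h⟩ else if i = j then 1 else 0

theorem um_lt (f : {ij : Fin n × Fin n // ij.1 < ij.2} → F) {i j : Fin n} (h : i < j) : um f i j = f ⟨(i, j), h⟩ := by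
  unfold um
  rw [Matrix.of_apply, dif_pos h]

theorem um_self (f : {ij : Fin n × Fin n // ij.1 < ij.2} → F) (i : Fin n) : um f i i = 1 := by
  unfold um
  rw [Matrix.of_apply, dif_neg (lt_irrefl i), if_pos rfl]

theorem um_gt (f : {ij : Fin n × Fin n // ij.1 < ij.2} → F) {i j : Fin n} (h : j < i) : um f i j = 0 := by
  unfold um
  rw [Matrix.of_apply, dif_neg (not_lt.2 h.le), if_neg h.ne']

theorem um_tri (f : {ij : Fin n × Fin n // ij.1 < ij.2} → F) : (um f).BlockTriangular id := fun _ _ h => um_gt f h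

theorem card_Un : Nat.card (Un n F) = Fintype.card F ^ (n * (n - 1) / 2) := by
  classical
  have e : Un n F ≃ ({ij : Fin n × Fin n // ij.1 < ij.2} → F) :=
    { toFun := fun u ij => mt (u : SpecialLinearGroup (Fin n) F) ij.1.1 ij.1.2
      invFun := fun f => mkU (um f) (um_tri f) (um_self f)
      left_inv := by
        intro u
        apply Subtype.ext
        apply mt_inj
        beta_reduce
        rw [mt_mkU]
        ext i j
        rcases lt_trichotomy i j with h | h | h
        · rw [um_lt _ h]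
        · rw [h, um_self, (mem_Un.1 u.2).2]
        · rw [um_gt _ h]; exact ((mem_Un.1 u.2).1 h).symm
      right_inv := by
        intro f
        funext ij
        beta_reduce
        rw [mt_mkU, um_lt _ ij.2] }
  rw [Nat.card_congr e, Nat.card_fun, Nat.card_eq_fintype_card (α := F)]
  congr 1
  rw [Nat.card_eq_fintype_card, Fintype.card_subtype]
  have h1 : (Finset.univ.filter fun ij : Fin n × Fin n => ij.1 < ij.2).card = ∑ j : Fin n, (j : ℕ) := by
    rw [← Finset.univ_product_univ, Finset.card_filter, Finset.sum_product_right]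
    refine Finset.sum_congr rfl fun j _ => ?_
    rw [← Finset.card_filter]
    have : (Finset.univ.filter fun i : Fin n => i < j) = Finset.Iio j := by ext; simp
    rw [this, Fin.card_Iio]
  rw [h1, Fin.sum_univ_eq_sum_range (fun i => i), Finset.sum_range_id]

theorem factor {p : ℕ} [hp : Fact p.Prime] [CharP F p] (hn : 1 ≤ n) :
    p ^ (Nat.card (SpecialLinearGroup (Fin n) F)).factorization p = Fintype.card F ^ (n * (n - 1) / 2) := by
  obtain ⟨f, hpF, hf⟩ := FiniteField.card F p
  have hcard := Cfsg.Agent.H5.GL.card_SL (F := F) rfl n hn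
  set q := Fintype.card F with hq
  have hq1 : 1 < q := Fintype.one_lt_card
  have h1 : ∏ i : Fin n, (q ^ n - q ^ (i : ℕ)) = q ^ (n * (n - 1) / 2) * ∏ i : Fin n, (q ^ (n - i) - 1) := by
    have h2 : ∀ i : Fin n, q ^ n - q ^ (i : ℕ) = q ^ (i : ℕ) * (q ^ (n - i) - 1) := by
      intro i
      rw [Nat.mul_sub, mul_one, ← pow_add, Nat.add_sub_cancel' i.2.le]
    rw [Finset.prod_congr rfl fun i _ => h2 i, Finset.prod_mul_distrib, Finset.prod_pow_eq_pow_sum,
      Fin.sum_univ_eq_sum_range (fun i => i), Finset.sum_range_id]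
  rw [h1] at hcard
  have hnd : ∀ k : ℕ, 0 < k → ¬ p ∣ q ^ k - 1 := by
    intro k hk hd
    have h3 : p ∣ q ^ k := by
      rw [hf, ← pow_mul]
      exact dvd_pow_self p (Nat.mul_pos f.pos hk).ne'
    have h4 : 1 ≤ q ^ k := Nat.one_le_pow _ _ (by omega)
    have h5 : p ∣ q ^ k - (q ^ k - 1) := Nat.dvd_sub h3 hd
    rw [Nat.sub_sub_self h4] at h5
    exact hp.out.one_lt.ne' (Nat.dvd_one.1 h5)
  have hfac := congrArg (fun m => Nat.factorization m p) hcard
  beta_reduce at hfac
  have hG : Nat.card (SpecialLinearGroup (Fin n) F) ≠ 0 := Nat.card_pos.ne'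
  rw [Nat.factorization_mul (by omega) hG, Nat.factorization_mul (pow_ne_zero _ (by omega)) ?_, Finsupp.add_apply,
    Finsupp.add_apply, Nat.factorization_eq_zero_of_not_dvd (n := q - 1), zero_add,
    Nat.factorization_eq_zero_of_not_dvd (n := ∏ i : Fin n, (q ^ (n - i) - 1)), add_zero, Nat.factorization_pow] at hfac
  · rw [hfac, Finsupp.smul_apply, smul_eq_mul, hf, hpF.factorization_pow]
    rw [Finsupp.single_eq_same, ← pow_mul]
    congr 1
    ring
  · rw [hp.out.prime.dvd_finsetProd_iff]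
    rintro ⟨i, -, hi⟩
    exact hnd _ (by have := i.2; omega) hi
  · have := hnd 1 one_pos
    rwa [pow_one] at this
  · rw [Finset.prod_ne_zero_iff]
    intro i _ h0
    have := hnd (n - i) (by have := i.2; omega)
    rw [h0] at this
    exact this (dvd_zero _)

end count

end Cfsg.Agent.H25.SLa
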