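import Cfsg.Agent.H25_SLa

/-! Uniqueness of the character of defect zero of `SL_n` in the defining characteristic. -/

set_option autoImplicit false
set_option linter.unusedSectionVars false

namespace Cfsg.Agent.H25.SLb

open Matrix Cfsg.Agent.H15.Bruhat Cfsg.Agent.H25.STo Cfsg.Agent.H25.SLa Cfsg.Agent.H25.Whi

variable {F : Type*} [Field F] {n : ℕ}

theorem exists_ws [Fintype F] {p : ℕ} [hp : Fact p.Prime] [CharP F p] (hn : 2 ≤ n) [Fintype (SpecialLinearGroup (Fin n) F)] :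
    ∃ (ψ : Un n F →* ℂˣ) (g0 : SpecialLinearGroup (Fin n) F), WS p (Un n F) (Bn n F) ψ g0 := by
  classical
  obtain ⟨e, he⟩ := AddChar.exists_apply_ne_zero.2 (one_ne_zero (α := F))
  have hfac := factor (F := F) (n := n) (p := p) (by omega)
  have key : ∀ g : SpecialLinearGroup (Fin n) F, (∃ x, ∃ hx : x ∈ Un n F, g⁻¹ * x * g ∈ Un n F ∧ psi e ⟨x, hx⟩ ≠ 1) ∨
      ∃ u ∈ Un n F, ∃ b : Matrix (Fin n) (Fin n) F, IsUnit b ∧ b.BlockTriangular id ∧
        mt g = mt u * pm F Fin.revPerm * b := by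
    intro g
    obtain ⟨u, hu, w, b, hb, tb, hg⟩ := bruhat g
    by_cases h : ∃ i j : Fin n, (j : ℕ) = i + 1 ∧ w⁻¹ i < w⁻¹ j
    · obtain ⟨i, j, hij, hw⟩ := h
      exact Or.inl (big1 e he hu hb tb hg hij hw)
    · right
      have h1 : ∀ i, w⁻¹ i = Fin.rev i := by
        apply rev_of
        intro i j hij
        rcases lt_trichotomy (w⁻¹ i) (w⁻¹ j) with h2 | h2 | h2
        · exact absurd ⟨i, j, hij, h2⟩ h
        · have := (w⁻¹).injective h2
          rw [this] at hij; omega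
        · exact h2
      have h2 : w = Fin.revPerm := by
        ext i
        have h3 := h1 (Fin.rev i)
        rw [Fin.rev_rev, Equiv.Perm.inv_eq_iff_eq] at h3
        rw [Fin.revPerm_apply, ← h3]
      rw [h2] at hg
      exact ⟨u, hu, b, hb, tb, hg⟩
  have hcomm := comm_le (n := n) (F := F)
  have hcard : Nat.card (Un n F) = p ^ (Nat.card (SpecialLinearGroup (Fin n) F)).factorization p := by
    rw [card_Un, hfac]
  have hpd : p ∣ Nat.card (SpecialLinearGroup (Fin n) F) := by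
    have h0 : Nat.card (SpecialLinearGroup (Fin n) F) ≠ 0 := Nat.card_pos.ne'
    refine dvd_trans ?_ (Nat.ordProj_dvd _ p)
    rw [hfac]
    obtain ⟨f, hpF, hf⟩ := FiniteField.card F p
    have h1 : 0 < n * (n - 1) / 2 := Nat.div_pos (by nlinarith [Nat.sub_add_cancel (show 1 ≤ n by omega), show 1 ≤ n - 1 by omega]) (by omega)
    rw [hf, ← pow_mul]
    exact dvd_pow_self p (Nat.mul_pos f.pos h1).ne'
  by_cases h : ∃ g0 : SpecialLinearGroup (Fin n) F, ∃ u ∈ Un n F, ∃ b : Matrix (Fin n) (Fin n) F, IsUnit b ∧ b.BlockTriangular id ∧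
        mt g0 = mt u * pm F Fin.revPerm * b
  · obtain ⟨g0, u0, hu0, b0, hb0, tb0, hg0⟩ := h
    refine ⟨psi e, g0, Un_le, hcard, hpd, hcomm, fun g => ?_⟩
    rcases key g with h1 | ⟨u, hu, b, hb, tb, hg⟩
    · exact Or.inl h1
    · exact Or.inr (big2 hu hu0 (fun i => Fin.revPerm_apply i) hb tb hb0 tb0 hg hg0)
  · refine ⟨psi e, 1, Un_le, hcard, hpd, hcomm, fun g => ?_⟩
    rcases key g with h1 | h1
    · exact Or.inl h1
    · exact absurd ⟨g, h1⟩ h

/-- the standard diagonal elements -/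
noncomputable abbrev hh {i j : Fin n} (hij : i ≠ j) (a : F) (ha : a ≠ 0) : SpecialLinearGroup (Fin n) F :=
  SpecialLinearGroup.diag2n hij a ha

theorem mt_hh {i j : Fin n} (hij : i ≠ j) (a : F) (ha : a ≠ 0) :
    mt (hh hij a ha) = diagonal (fun k => if k = i then a else if k = j then a⁻¹ else 1) := rfl

theorem hh_mem {i j : Fin n} (hij : i ≠ j) (a : F) (ha : a ≠ 0) : hh hij a ha ∈ Bn n F := by
  rw [mem_Bn, mt_hh]
  exact blockTriangular_diagonal _

/-- build an element of `SL_n` -/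
def mkS (A : Matrix (Fin n) (Fin n) F) (h : A.det = 1) : SpecialLinearGroup (Fin n) F := ⟨A, h⟩

theorem mt_mkS (A : Matrix (Fin n) (Fin n) F) (h : A.det = 1) : mt (mkS A h) = A := rfl

theorem hh_conj {i j k l : Fin n} (hij : i ≠ j) (hkl : k ≠ l) (σ : Equiv.Perm (Fin n)) (hi : σ i = k) (hj : σ j = l)
    (a : F) (ha : a ≠ 0) : IsConj (hh hij a ha) (hh hkl a ha) := by
  have hd : (pm F σ).det ≠ 0 := ((Matrix.isUnit_iff_isUnit_det _).1 (pm_isUnit σ)).ne_zero
  let c : Fin n → F := fun m => if m = i then (pm F σ).det⁻¹ else 1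
  have hdet : (pm F σ * diagonal c).det = 1 := by
    rw [det_mul, det_diagonal, Finset.prod_ite_eq' Finset.univ i, if_pos (Finset.mem_univ _), mul_inv_cancel₀ hd]
  rw [isConj_iff]
  refine ⟨mkS (pm F σ * diagonal c) hdet, ?_⟩
  rw [mul_inv_eq_iff_eq_mul]
  apply mt_inj
  rw [mt_mul, mt_mul, mt_mkS, mt_hh, mt_hh, ← Matrix.mul_assoc, diag_pm, Matrix.mul_assoc, Matrix.mul_assoc, diagonal_mul_diagonal, diagonal_mul_diagonal]
  congr 2
  funext m
  have h1 : (σ m = k ↔ m = i) := by rw [← hi]; exact σ.injective.eq_iff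
  have h2 : (σ m = l ↔ m = j) := by rw [← hj]; exact σ.injective.eq_iff
  simp only [h1, h2]
  ring

theorem hh_pow {i j : Fin n} (hij : i ≠ j) (a : F) (ha : a ≠ 0) (m : ℕ) (h : a ^ m = 1) : hh hij a ha ^ m = 1 := by
  have h1 : ∀ m : ℕ, mt (hh hij a ha ^ m) = diagonal (fun k => (if k = i then a else if k = j then a⁻¹ else 1) ^ m) := by
    intro m
    induction m with
    | zero => rw [pow_zero, mt_one]; simp only [pow_zero]; exact diagonal_one.symm
    | succ m ih => rw [pow_succ, mt_mul, ih, mt_hh, diagonal_mul_diagonal]; simp only [pow_succ]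
  apply mt_inj
  rw [h1, mt_one, ← diagonal_one]
  congr 1
  funext k
  split_ifs
  · exact h
  · rw [inv_pow, h, inv_one]
  · exact one_pow m

theorem hh_mul {i j k : Fin n} (hij : i ≠ j) (hjk : j ≠ k) (hik : i ≠ k) (a : F) (ha : a ≠ 0) :
    hh hij a ha * hh hjk a ha = hh hik a ha := by
  apply mt_inj
  rw [mt_mul, mt_hh, mt_hh, mt_hh, diagonal_mul_diagonal]
  congr 1
  funext m
  by_cases h1 : m = i
  · subst h1; simp [hij, hik]
  · by_cases h2 : m = j
    · subst h2; simp [h1, hjk, inv_mul_cancel₀ ha]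
    · by_cases h3 : m = k
      · subst h3; simp [h1, h2]
      · simp [h1, h2, h3]

theorem hh_mul' {i j : Fin n} (hij : i ≠ j) (a : F) (ha : a ≠ 0) :
    hh hij a ha * hh hij.symm a ha = 1 := by
  apply mt_inj
  rw [mt_mul, mt_hh, mt_hh, mt_one, diagonal_mul_diagonal, ← diagonal_one]
  congr 1
  funext m
  by_cases h1 : m = i
  · subst h1; simp [hij, mul_inv_cancel₀ ha]
  · by_cases h2 : m = j
    · subst h2; simp [h1, inv_mul_cancel₀ ha]
    · simp [h1, h2]

theorem hh_reg [Fintype F] {p : ℕ} [hp : Fact p.Prime] [CharP F p] {i j : Fin n} (hij : i ≠ j) (a : F) (ha : a ≠ 0) :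
    ¬ p ∣ orderOf (hh hij a ha) := by
  intro hd
  have h1 : orderOf (hh hij a ha) ∣ Fintype.card F - 1 :=
    orderOf_dvd_of_pow_eq_one (hh_pow hij a ha _ (FiniteField.pow_card_sub_one_eq_one a ha))
  have h2 : p ∣ Fintype.card F - 1 := hd.trans h1
  obtain ⟨f, hpF, hf⟩ := FiniteField.card F p
  have h3 : p ∣ Fintype.card F := by rw [hf]; exact dvd_pow_self p f.pos.ne'
  have h4 : p ∣ Fintype.card F - (Fintype.card F - 1) := Nat.dvd_sub h3 h2
  rw [Nat.sub_sub_self Fintype.card_pos] at h4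
  exact hp.out.one_lt.ne' (Nat.dvd_one.1 h4)

/-- linear characters of `B` trivial on `U` and on the standard elements are trivial -/
theorem lam_one [Fintype F] (hn : 1 ≤ n) {l : Bn n F →* ℂˣ} (hl : l ∈ Lam ((Un n F).subgroupOf (Bn n F)))
    (h : ∀ {i j : Fin n} (hij : i ≠ j) (a : F) (ha : a ≠ 0), l ⟨hh hij a ha, hh_mem hij a ha⟩ = 1) : l = 1 := by
  set K : Subgroup (SpecialLinearGroup (Fin n) F) := l.ker.map (Bn n F).subtype with hK
  have hKm : ∀ g (hg : g ∈ Bn n F), g ∈ K → l ⟨g, hg⟩ = 1 := by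
    rintro g hg ⟨b, hb, e⟩
    have : b = ⟨g, hg⟩ := Subtype.ext e
    rw [← this]; exact MonoidHom.mem_ker.1 hb
  ext ⟨b, hb⟩
  rw [MonoidHom.one_apply]
  congr 1
  apply hKm
  have hd : ∀ k, mt b k k ≠ 0 := tri_diag_ne hb (isUnit_mt b)
  have hdet : (diagonal (fun k => mt b k k)).det = 1 := by
    rw [det_diagonal, ← det_of_upperTriangular (mem_Bn.1 hb), mt_det]
  set t : SpecialLinearGroup (Fin n) F := ⟨diagonal (fun k => mt b k k), hdet⟩ with ht
  have htK : t ∈ K := by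
    rw [ht, SpecialLinearGroup.diag_eq_diag2n_prod ⟨0, by omega⟩ (fun k => mt b k k) hdet]
    refine Subgroup.noncommProd_mem _ _ fun c hc => ?_
    have hc' : c ≠ ⟨0, by omega⟩ := (Finset.mem_filter.1 hc).2
    rw [dif_pos hc']
    exact ⟨⟨_, hh_mem hc' _ (hd c)⟩, MonoidHom.mem_ker.2 (h hc' _ (hd c)), rfl⟩
  have htB : t ∈ Bn n F := blockTriangular_diagonal _
  have hu : t⁻¹ * b ∈ Bn n F := (Bn n F).mul_mem ((Bn n F).inv_mem htB) hb
  have huU : t⁻¹ * b ∈ Un n F := by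
    rw [mem_Un]
    refine ⟨hu, fun k => ?_⟩
    have h1 : mt b k k = mt (t * (t⁻¹ * b)) k k := by rw [mul_inv_cancel_left]
    rw [mt_mul, diag_mul htB hu] at h1
    have h2 : mt t k k = mt b k k := by
      show diagonal (fun k => mt b k k) k k = _
      rw [diagonal_apply_eq]
    rw [h2] at h1
    exact mul_left_cancel₀ (hd k) (by rw [← h1, mul_one])
  have huK : t⁻¹ * b ∈ K := ⟨⟨_, hu⟩, MonoidHom.mem_ker.2 (mem_Lam.1 hl _ (Subgroup.mem_subgroupOf.2 huU)), rfl⟩
  have := K.mul_mem htK huK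
  rwa [mul_inv_cancel_left] at this

theorem unique [Fintype F] {p : ℕ} [hp : Fact p.Prime] [CharP F p] (hn : 2 ≤ n) (h3 : 3 ≤ n ∨ p = 2)
    [Fintype (SpecialLinearGroup (Fin n) F)] {χ χ' : SpecialLinearGroup (Fin n) F → ℂ} (hχ : DZ p χ) (hχ' : DZ p χ') :
    χ = χ' := by
  obtain ⟨ψ, g0, hws⟩ := exists_ws (F := F) (n := n) (p := p) hn
  refine hws.main ?_ hχ hχ'
  intro l hl hinv
  refine lam_one (by omega) hl ?_
  intro i j hij a ha
  have hc : ∀ {i j k m : Fin n} (hij : i ≠ j) (hkm : k ≠ m) (σ : Equiv.Perm (Fin n)) (_ : σ i = k) (_ : σ j = m),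
      l ⟨hh hij a ha, hh_mem hij a ha⟩ = l ⟨hh hkm a ha, hh_mem hkm a ha⟩ := by
    intro i j k m hij hkm σ hi hj
    exact hinv _ _ _ _ (hh_reg hij a ha) (hh_conj hij hkm σ hi hj a ha)
  by_cases hn3 : 3 ≤ n
  · obtain ⟨k, hki, hkj⟩ : ∃ k : Fin n, k ≠ i ∧ k ≠ j := by
      by_contra hcon
      push Not at hcon
      have h1 : (Finset.univ : Finset (Fin n)) ⊆ {i, j} := by
        intro k _
        by_cases h : k = i
        · simp [h]
        · simp [hcon k h]
      have h2 := Finset.card_le_card h1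
      rw [Finset.card_univ, Fintype.card_fin] at h2
      have h3 := Finset.card_le_two (a := i) (b := j)
      omega
    have e1 : (⟨hh hij a ha, hh_mem hij a ha⟩ : Bn n F) * ⟨hh hkj.symm a ha, hh_mem hkj.symm a ha⟩ =
        ⟨hh hki.symm a ha, hh_mem hki.symm a ha⟩ := Subtype.ext (hh_mul hij hkj.symm hki.symm a ha)
    have e2 := congrArg l e1
    rw [map_mul, hc hkj.symm hki.symm (Equiv.swap i j) (Equiv.swap_apply_right i j)
      (Equiv.swap_apply_of_ne_of_ne hki hkj)] at e2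
    exact mul_eq_right.1 e2
  · have hp2 : p = 2 := h3.resolve_left hn3
    have e1 : (⟨hh hij a ha, hh_mem hij a ha⟩ : Bn n F) * ⟨hh hij.symm a ha, hh_mem hij.symm a ha⟩ = 1 :=
      Subtype.ext (hh_mul' hij a ha)
    have e2 := congrArg l e1
    rw [map_mul, map_one, ← hc hij hij.symm (Equiv.swap i j) (Equiv.swap_apply_left i j) (Equiv.swap_apply_right i j),
      ← sq] at e2
    have e3 : l ⟨hh hij a ha, hh_mem hij a ha⟩ ^ (Fintype.card F - 1) = 1 := by
      rw [← map_pow]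
      have : (⟨hh hij a ha, hh_mem hij a ha⟩ : Bn n F) ^ (Fintype.card F - 1) = 1 :=
        Subtype.ext (hh_pow hij a ha _ (FiniteField.pow_card_sub_one_eq_one a ha))
      rw [this, map_one]
    have h4 := Nat.dvd_gcd (orderOf_dvd_of_pow_eq_one e2) (orderOf_dvd_of_pow_eq_one e3)
    have h5 : Nat.gcd 2 (Fintype.card F - 1) = 1 := by
      rw [← Nat.coprime_iff_gcd_eq_one, Nat.coprime_two_left]
      obtain ⟨f, hpF, hf⟩ := FiniteField.card F p
      have h6 : Even (Fintype.card F) := by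
        rw [hf, hp2]
        exact (Nat.even_pow.2 ⟨even_two, f.pos.ne'⟩)
      have h7 : 1 ≤ Fintype.card F := Fintype.card_pos
      rcases h6 with ⟨r, hr⟩
      exact ⟨r - 1, by omega⟩
    rw [h5, Nat.dvd_one, orderOf_eq_one_iff] at h4
    exact h4

end Cfsg.Agent.H25.SLb
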