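import Cfsg.Agent.H25_SLb
import Cfsg.Agent.S2421
import Cfsg.Agent.S2424
import Cfsg.Agent.H3_Lift

/-! Existence of a character of defect zero of `SL_n` in the defining characteristic. -/

set_option autoImplicit false
set_option linter.unusedSectionVars false

namespace Cfsg.Agent.H25.SLc

open Matrix Cfsg Cfsg.Agent.H25.SLa Cfsg.Agent.H25.Whi Cfsg.Agent.H3.CharIrr Cfsg.Agent.H3.CharInd Cfsg.Agent.H3.CharComplete

section arith

theorem choose_three (n : ℕ) : n * (n - 1) * (n - 2) / 6 = n.choose 3 := by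
  rw [Nat.choose_eq_descFactorial_div_factorial]
  have h1 : n.descFactorial 3 = n * (n - 1) * (n - 2) := by
    simp only [Nat.descFactorial_succ, Nat.descFactorial_zero, mul_one, Nat.sub_zero]
    ring
  rw [h1]; rfl

/-- `1 + q + … + q^(m-1)` -/
noncomputable def Q (q : ℕ) (m : ℕ) : ℂ := ((∑ l ∈ Finset.range m, q ^ l : ℕ) : ℂ)

theorem Q_sub (q : ℕ) {i n : ℕ} (h : i < n) : Q q (1 + n) - Q q (1 + i) = (q : ℂ) ^ (i + 1) * Q q (n - i) := by
  unfold Q
  obtain ⟨k, rfl⟩ := Nat.exists_eq_add_of_lt h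
  have e1 : 1 + (i + k + 1) = (1 + i) + (k + 1) := by ring
  have e2 : i + k + 1 - i = k + 1 := by omega
  rw [e1, e2, Finset.sum_range_add]
  push_cast
  rw [add_sub_cancel_left, Finset.mul_sum]
  refine Finset.sum_congr rfl fun l _ => ?_
  rw [← pow_add]
  congr 1
  ring

theorem Q_ne {q m : ℕ} (hq : 0 < q) (hm : 0 < m) : Q q m ≠ 0 := by
  unfold Q
  rw [Nat.cast_ne_zero]
  have : 0 < ∑ l ∈ Finset.range m, q ^ l := Finset.sum_pos (fun l _ => pow_pos hq l) ⟨0, Finset.mem_range.2 hm⟩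
  omega

theorem prod_step (q n : ℕ) : ∏ i ∈ Finset.range n, (Q q (1 + n) - Q q (1 + i)) =
    (q : ℂ) ^ (n + 1).choose 2 * ∏ j ∈ Finset.range n, Q q (j + 1) := by
  rw [Finset.prod_congr rfl fun i hi => Q_sub q (Finset.mem_range.1 hi), Finset.prod_mul_distrib, Finset.prod_pow_eq_pow_sum]
  congr 1
  · congr 1
    rw [Nat.choose_two_right, ← Finset.sum_range_id, Finset.sum_range_succ' (fun i => i)]
    rfl
  · rw [← Finset.prod_range_reflect]
    refine Finset.prod_congr rfl fun i hi => ?_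
    have := Finset.mem_range.1 hi
    congr 1
    omega

theorem ident (q : ℕ) (n : ℕ) :
    (∏ i ∈ Finset.range n, ∏ j ∈ Finset.range (1 + i), Q q (j + 1)) * (q : ℂ) ^ (n + 1).choose 3 =
      (∏ j ∈ Finset.range n, Q q (j + 1)) *
        ∏ i ∈ Finset.range n, ∏ j ∈ Finset.range n, (if i < j then Q q (1 + j) - Q q (1 + i) else 1) := by
  induction n with
  | zero => simp [show Nat.choose 1 3 = 0 from rfl]
  | succ n ih =>
    have h1 : ∏ i ∈ Finset.range (n + 1), ∏ j ∈ Finset.range (n + 1), (if i < j then Q q (1 + j) - Q q (1 + i) else 1) =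
        (∏ i ∈ Finset.range n, ∏ j ∈ Finset.range n, (if i < j then Q q (1 + j) - Q q (1 + i) else 1)) *
          ∏ i ∈ Finset.range n, (Q q (1 + n) - Q q (1 + i)) := by
      rw [Finset.prod_range_succ]
      have h2 : ∏ j ∈ Finset.range (n + 1), (if n < j then Q q (1 + j) - Q q (1 + n) else 1) = 1 := by
        refine Finset.prod_eq_one fun j hj => ?_
        rw [if_neg (by have := Finset.mem_range.1 hj; omega)]
      rw [h2, mul_one, ← Finset.prod_mul_distrib]
      refine Finset.prod_congr rfl fun i hi => ?_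
      rw [Finset.prod_range_succ, if_pos (Finset.mem_range.1 hi)]
    rw [h1, prod_step, Finset.prod_range_succ _ n, Finset.prod_range_succ _ n, add_comm 1 n, Finset.prod_range_succ _ n,
      Nat.choose_succ_succ (n + 1) 2, pow_add]
    linear_combination ((∏ j ∈ Finset.range n, Q q (j + 1)) * Q q (n + 1) * (q : ℂ) ^ (n + 1).choose 2) * ih

end arith

variable {F : Type*} [Field F] [Fintype F] {n : ℕ}

theorem degree (n : ℕ) : unipotentCharacterGL n F (fun _ => 1) 1 = ((Fintype.card F ^ (n * (n - 1) / 2) : ℕ) : ℂ) := by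
  have h := Cfsg.Agent.S2424.result (F := F) rfl (n := n) (fun _ => 1) (fun _ _ _ => le_rfl) (by simp)
  set q := Fintype.card F with hq
  have hq0 : 0 < q := Fintype.card_pos
  have hqc : (q : ℂ) ≠ 0 := by exact_mod_cast hq0.ne'
  have e1 : ∏ i : Fin n, ∏ j ∈ Finset.range (1 + i.val), ((∑ l ∈ Finset.range (j + 1), q ^ l : ℕ) : ℂ) =
      ∏ i ∈ Finset.range n, ∏ j ∈ Finset.range (1 + i), Q q (j + 1) :=
    Fin.prod_univ_eq_prod_range (fun i => ∏ j ∈ Finset.range (1 + i), Q q (j + 1)) n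
  have e2 : ∏ i : Fin n, ∏ j ∈ Finset.univ.filter (fun j : Fin n => i < j),
          (((∑ l ∈ Finset.range (1 + j.val), q ^ l : ℕ) : ℂ) - ((∑ l ∈ Finset.range (1 + i.val), q ^ l : ℕ) : ℂ)) =
      ∏ i ∈ Finset.range n, ∏ j ∈ Finset.range n, (if i < j then Q q (1 + j) - Q q (1 + i) else 1) := by
    rw [← Fin.prod_univ_eq_prod_range (fun i => ∏ j ∈ Finset.range n, (if i < j then Q q (1 + j) - Q q (1 + i) else 1)) n]
    refine Finset.prod_congr rfl fun i _ => ?_
    rw [← Fin.prod_univ_eq_prod_range (fun j => (if (i : ℕ) < j then Q q (1 + j) - Q q (1 + i) else 1)) n, Finset.prod_filter]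
    rfl
  rw [e1, e2, choose_three] at h
  have h2 := ident q n
  have h3 : ∏ i ∈ Finset.range n, ∏ j ∈ Finset.range (1 + i), Q q (j + 1) ≠ 0 := by
    rw [Finset.prod_ne_zero_iff]
    intro i _
    rw [Finset.prod_ne_zero_iff]
    intro j _
    exact Q_ne hq0 (by omega)
  have h4 : (∏ j ∈ Finset.range n, ((∑ l ∈ Finset.range (j + 1), q ^ l : ℕ) : ℂ)) = ∏ j ∈ Finset.range n, Q q (j + 1) := rfl
  rw [h4, ← h2] at h
  have h5 : (n + 1).choose 3 = n.choose 2 + n.choose 3 := Nat.choose_succ_succ n 2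
  rw [h5, pow_add] at h
  push_cast
  rw [← Nat.choose_two_right]
  have h6 : (q : ℂ) ^ n.choose 3 ≠ 0 := pow_ne_zero _ hqc
  apply mul_right_cancel₀ h6
  apply mul_right_cancel₀ h3
  linear_combination h

theorem exists_dz {p : ℕ} [hp : Fact p.Prime] [CharP F p] (hn : 1 ≤ n) [Fintype (SpecialLinearGroup (Fin n) F)] :
    ∃ χ : SpecialLinearGroup (Fin n) F → ℂ, DZ p χ := by
  classical
  have hX := Cfsg.Agent.S2421.result (F := F) (n := n) (fun _ => 1) (fun _ _ _ => le_rfl) (by simp)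
  have hd := degree (F := F) n
  set X := unipotentCharacterGL n F (fun _ => 1) with hXd
  haveI : Fintype (GL (Fin n) F) := Fintype.ofFinite _
  set N : Subgroup (GL (Fin n) F) := (Matrix.SpecialLinearGroup.toGL : SpecialLinearGroup (Fin n) F →* GL (Fin n) F).range with hN
  haveI : NeZero n := ⟨by omega⟩
  haveI hNn : N.Normal := by
    rw [hN, H5.GL.range_toGL]; infer_instance
  haveI : Fintype N := Fintype.ofFinite _
  have hres : IsCharacter N (fun x : N => X x) := IsChar.res (IsIrr.isCharacter hX) N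
  have hne : (fun x : N => X x) ≠ 0 := by
    intro h
    have := congrFun h 1
    exact IsIrr.one_ne_zero hX this
  obtain ⟨ϑ, hϑ, h0⟩ := exists_constituent hres hne
  obtain ⟨b, hb, hbd⟩ := Cfsg.Agent.H3.Lift.degree_dvd N hX hϑ h0
  obtain ⟨d, hd0, hdd⟩ := IsIrr.one_eq_nat hϑ
  have hidx : N.index = Fintype.card F - 1 := by
    have h1 := H5.GL.card_SL_mul (n := Fin n) (F := F) rfl
    have h2 : Nat.card N = Nat.card (SpecialLinearGroup (Fin n) F) :=
      (Nat.card_congr (MonoidHom.ofInjective (Matrix.SpecialLinearGroup.toGL_injective)).toEquiv).symm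
    have h3 := N.card_mul_index
    rw [h2, ← h1, mul_comm] at h3
    exact Nat.eq_of_mul_eq_mul_right Nat.card_pos h3
  rw [hd, hdd] at hb
  have hb' : Fintype.card F ^ (n * (n - 1) / 2) = b * d := by exact_mod_cast hb
  have hb1 : b = 1 := by
    have h1 : b ∣ Fintype.card F ^ (n * (n - 1) / 2) := ⟨d, hb'⟩
    rw [hidx] at hbd
    have h2 : Nat.Coprime (Fintype.card F - 1) (Fintype.card F ^ (n * (n - 1) / 2)) := by
      apply Nat.Coprime.pow_right
      have h3 : 1 ≤ Fintype.card F := Fintype.card_pos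
      have h4 : Nat.Coprime (Fintype.card F - 1) (Fintype.card F - 1 + 1) := by simp
      rwa [Nat.sub_add_cancel h3] at h4
    exact Nat.eq_one_of_dvd_coprimes h2 hbd h1
  rw [hb1, one_mul] at hb'
  let f : SpecialLinearGroup (Fin n) F ≃* N := MonoidHom.ofInjective Matrix.SpecialLinearGroup.toGL_injective
  refine ⟨fun x => ϑ (f x), (isIrr_comp_iff f).2 hϑ, 1, ?_⟩
  beta_reduce
  rw [map_one, hdd, mul_one, factor hn, hb']

end Cfsg.Agent.H25.SLc
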