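import Cfsg.Agent.H25_SLc
import Cfsg.Agent.H22_PGLCover
import Cfsg.Agent.H10_BlockMax
import Cfsg.Agent.H10_BlockFMT2
import Cfsg.Agent.S0914

/-! Blocks of `SL_n` in the defining characteristic. -/

set_option autoImplicit false
set_option linter.unusedSectionVars false

namespace Cfsg.Agent.H25.SLd

open Matrix Cfsg Cfsg.Agent.H25.SLa Cfsg.Agent.H25.SLb Cfsg.Agent.H25.Whi Cfsg.Agent.H3.CharIrr Cfsg.Agent.H3.CharInd Cfsg.Agent.H3.CharComplete
  Cfsg.Agent.H10.BlockDefect Cfsg.Agent.H10.BlockMain Cfsg.Agent.H10.BlockFMT2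

variable {F : Type*} [Field F] {n : ℕ}

local notation "SLn" => SpecialLinearGroup (Fin n) F

/-- action on vectors -/
def ac (g : SpecialLinearGroup (Fin n) F) (v : Fin n → F) : Fin n → F := mt g *ᵥ v

theorem ac_mul (g h : SLn) (v : Fin n → F) : ac (g * h) v = ac g (ac h v) := by
  unfold ac; rw [mt_mul, ← mulVec_mulVec]

theorem ac_one (v : Fin n → F) : ac (1 : SLn) v = v := by
  unfold ac; rw [mt_one, one_mulVec]

theorem ac_add (g : SLn) (v w : Fin n → F) : ac g (v + w) = ac g v + ac g w := by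
  unfold ac; rw [mulVec_add]

theorem ac_sub (g : SLn) (v w : Fin n → F) : ac g (v - w) = ac g v - ac g w := by
  unfold ac; rw [mulVec_sub]

theorem ac_smul (g : SLn) (c : F) (v : Fin n → F) : ac g (c • v) = c • ac g v := by
  unfold ac; rw [mulVec_smul]

theorem ac_inv (g : SLn) (v : Fin n → F) : ac g⁻¹ (ac g v) = v := by
  rw [← ac_mul, inv_mul_cancel, ac_one]

theorem ac_inv' (g : SLn) (v : Fin n → F) : ac g (ac g⁻¹ v) = v := by
  rw [← ac_mul, mul_inv_cancel, ac_one]

theorem ac_ext {g h : SLn} (e : ∀ v, ac g v = ac h v) : g = h := by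
  apply mt_inj
  apply Matrix.toLin'.injective
  apply LinearMap.ext
  intro v
  rw [toLin'_apply, toLin'_apply]
  exact e v

/-- fixed vectors -/
def fx (D : Subgroup SLn) : Submodule F (Fin n → F) where
  carrier := {v | ∀ d ∈ D, ac d v = v}
  add_mem' {a b} ha hb d hd := by rw [ac_add, ha d hd, hb d hd]
  zero_mem' d _ := by unfold ac; rw [mulVec_zero]
  smul_mem' c v hv d hd := by rw [ac_smul, hv d hd]

theorem mem_fx {D : Subgroup SLn} {v : Fin n → F} : v ∈ fx D ↔ ∀ d ∈ D, ac d v = v := Iff.rfl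

/-- the unipotent radical of the stabilizer of `W` -/
def AW (W : Submodule F (Fin n → F)) : Subgroup SLn where
  carrier := {a | (∀ v ∈ W, ac a v = v) ∧ ∀ v, ac a v - v ∈ W}
  mul_mem' {a b} ha hb := by
    refine ⟨fun v hv => by rw [ac_mul, hb.1 v hv, ha.1 v hv], fun v => ?_⟩
    rw [ac_mul]
    have := W.add_mem (ha.2 (ac b v)) (hb.2 v)
    rwa [sub_add_sub_cancel] at this
  one_mem' := ⟨fun v _ => ac_one v, fun v => by rw [ac_one, sub_self]; exact W.zero_mem⟩
  inv_mem' {a} ha := by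
    refine ⟨fun v hv => ?_, fun v => ?_⟩
    · have := congrArg (ac a⁻¹) (ha.1 v hv)
      rw [ac_inv] at this
      exact this.symm
    · have := W.neg_mem (ha.2 (ac a⁻¹ v))
      rwa [ac_inv', neg_sub] at this

theorem mem_AW {W : Submodule F (Fin n → F)} {a : SLn} : a ∈ AW W ↔ (∀ v ∈ W, ac a v = v) ∧ ∀ v, ac a v - v ∈ W := Iff.rfl

theorem AW_pow {W : Submodule F (Fin n → F)} {a : SLn} (ha : a ∈ AW W) (k : ℕ) (v : Fin n → F) :
    ac (a ^ k) v = v + (k : F) • (ac a v - v) := by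
  induction k with
  | zero => rw [pow_zero, ac_one]; simp
  | succ k ih =>
    rw [pow_succ', ac_mul, ih, ac_add, ac_smul, ha.1 _ (ha.2 v)]
    push_cast
    rw [add_smul, one_smul]
    abel

theorem AW_pg {p : ℕ} [hp : Fact p.Prime] [CharP F p] (W : Submodule F (Fin n → F)) : IsPGroup p (AW W : Subgroup SLn) := by
  rintro ⟨a, ha⟩
  refine ⟨1, Subtype.ext ?_⟩
  show a ^ p ^ 1 = 1
  rw [pow_one]
  apply ac_ext
  intro v
  rw [AW_pow ha, CharP.cast_eq_zero F p, zero_smul, add_zero, ac_one]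

theorem exists_el {W : Submodule F (Fin n → F)} {w : Fin n → F} (hw : w ∈ W) (φ : (Fin n → F) →ₗ[F] F)
    (hφ : ∀ v ∈ W, φ v = 0) : ∃ a : SLn, a ∈ AW W ∧ ∀ v, ac a v = v + φ v • w := by
  set f : Fin n → F := fun j => φ (Pi.single j 1) with hf
  have hφf : ∀ v : Fin n → F, φ v = f ⬝ᵥ v := by
    intro v
    have h1 : v = ∑ j, v j • (Pi.single j (1 : F) : Fin n → F) := by
      funext i
      rw [Finset.sum_apply, Finset.sum_eq_single_of_mem i (Finset.mem_univ _)]
      · simp
      · intro j _ hj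
        simp [Pi.single_eq_of_ne' hj]
    conv_lhs => rw [h1]
    rw [map_sum, dotProduct]
    refine Finset.sum_congr rfl fun j _ => ?_
    rw [map_smul, smul_eq_mul, hf, mul_comm]
  have hdet : (1 + vecMulVec w f).det = 1 := by
    rw [vecMulVec_eq Unit, det_one_add_replicateCol_mul_replicateRow, ← hφf, hφ w hw, add_zero]
  have hact : ∀ v, ac (mkS (1 + vecMulVec w f) hdet) v = v + φ v • w := by
    intro v
    unfold ac
    rw [mt_mkS, add_mulVec, one_mulVec, vecMulVec_mulVec, hφf]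
    congr 1
    funext i
    simp [mul_comm]
  refine ⟨mkS (1 + vecMulVec w f) hdet, ⟨fun v hv => ?_, fun v => ?_⟩, hact⟩
  · rw [hact, hφ v hv, zero_smul, add_zero]
  · rw [hact, add_sub_cancel_left]
    exact W.smul_mem _ hw

theorem exists_fix [Finite F] {p : ℕ} [hp : Fact p.Prime] [CharP F p] (hn : 0 < n) {D : Subgroup SLn} (hD : IsPGroup p D) :
    ∃ v ∈ fx D, v ≠ 0 := by
  let act : MulAction D (Fin n → F) :=
    { smul := fun g v => ac (g : SLn) v
      one_smul := fun v => by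
        show ac ((1 : D) : SLn) v = v
        rw [Subgroup.coe_one, ac_one]
      mul_smul := fun g h v => by
        show ac ((g * h : D) : SLn) v = ac (g : SLn) (ac (h : SLn) v)
        rw [Subgroup.coe_mul, ac_mul] }
  obtain ⟨v, hv, h⟩ := Cfsg.Agent.H22.PGL.exists_fixed (F := F) (n := n) hD hn (fun g => by
    show ac (g : SLn) 0 = 0
    unfold ac; exact mulVec_zero _)
  exact ⟨v, fun g hg => h ⟨g, hg⟩, hv⟩

theorem fx_ne_top {D : Subgroup SLn} (hD : D ≠ ⊥) : fx D ≠ ⊤ := by
  intro h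
  apply hD
  rw [Subgroup.eq_bot_iff_forall]
  intro d hd
  apply ac_ext
  intro v
  rw [ac_one]
  have : v ∈ fx D := by rw [h]; exact Submodule.mem_top
  exact this d hd

/-- `p`-regular elements centralizing `D` are scalar -/
theorem scalar_of [Finite F] {p : ℕ} [hp : Fact p.Prime] [CharP F p] (hn : 0 < n) {D : Subgroup SLn} (hD : IsPGroup p D)
    (hne : D ≠ ⊥) (hA : AW (fx D) ≤ D) {x : SLn} (hx : x ∈ Subgroup.centralizer (D : Set SLn)) (hxp : ¬ p ∣ orderOf x) :
    x ∈ Subgroup.center SLn := by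
  obtain ⟨w0, hw0, hw0ne⟩ := exists_fix hn hD
  obtain ⟨v0, hv0⟩ : ∃ v0, v0 ∉ fx D := by
    by_contra h
    push Not at h
    exact fx_ne_top hne (eq_top_iff.2 fun v _ => h v)
  obtain ⟨φ0, h0, hφ0⟩ := Submodule.exists_dual_map_eq_bot_of_notMem hv0 inferInstance
  have hφ0' : ∀ v ∈ fx D, φ0 v = 0 := by
    intro v hv
    have : φ0 v ∈ (fx D).map φ0 := ⟨v, hv, rfl⟩
    rw [hφ0] at this
    exact (Submodule.mem_bot F).1 this
  -- the commutation relation
  have hcomm : ∀ w ∈ fx D, ∀ φ : (Fin n → F) →ₗ[F] F, (∀ v ∈ fx D, φ v = 0) → ∀ v, φ v • ac x w = φ (ac x v) • w := by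
    intro w hw φ hφ v
    obtain ⟨a, ha, hav⟩ := exists_el hw φ hφ
    have h1 := Subgroup.mem_centralizer_iff.1 hx a (hA ha)
    have h2 := congrArg (fun g => ac g v) h1
    beta_reduce at h2
    rw [ac_mul, ac_mul, hav, hav, ac_add, ac_smul] at h2
    exact (add_left_cancel h2).symm
  set c := φ0 (ac x v0) / φ0 v0 with hc
  have hxw : ∀ w ∈ fx D, ac x w = c • w := by
    intro w hw
    have h1 := hcomm w hw φ0 hφ0' v0
    rw [hc, div_eq_inv_mul, mul_smul, ← h1, smul_smul, inv_mul_cancel₀ h0, one_smul]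
  have hxv : ∀ v, ac x v - c • v ∈ fx D := by
    intro v
    by_contra hcon
    obtain ⟨φ, h1, h2⟩ := Submodule.exists_dual_map_eq_bot_of_notMem hcon inferInstance
    have h2' : ∀ v ∈ fx D, φ v = 0 := by
      intro v hv
      have : φ v ∈ (fx D).map φ := ⟨v, hv, rfl⟩
      rw [h2] at this
      exact (Submodule.mem_bot F).1 this
    apply h1
    have h3 := hcomm w0 hw0 φ h2' v
    rw [hxw w0 hw0, smul_smul] at h3
    have h4 : (φ v * c - φ (ac x v)) • w0 = 0 := by rw [sub_smul, h3, sub_self]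
    have h5 := (smul_eq_zero.1 h4).resolve_right hw0ne
    rw [map_sub, map_smul, smul_eq_mul]
    linear_combination -h5
  -- powers
  have hpow : ∀ (k : ℕ) (v : Fin n → F), ac (x ^ (k + 1)) v = c ^ (k + 1) • v + ((k + 1 : ℕ) : F) • c ^ k • (ac x v - c • v) := by
    intro k
    induction k with
    | zero => intro v; simp
    | succ k ih =>
      intro v
      have e1 : ac x (ac x v - c • v) = c • (ac x v - c • v) := hxw _ (hxv v)
      rw [pow_succ', ac_mul, ih, ac_add, ac_smul, ac_smul, ac_smul, e1]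
      have e2 : ac x v = c • v + (ac x v - c • v) := by abel
      set N := ac x v - c • v with hN
      rw [e2]
      push_cast
      module
  have hxn : x ^ orderOf x = 1 := pow_orderOf_eq_one x
  have hpos : 0 < orderOf x := orderOf_pos x
  obtain ⟨m, hm⟩ : ∃ m, orderOf x = m + 1 := ⟨orderOf x - 1, by omega⟩
  rw [hm] at hxn hxp
  have hc1 : c ^ (m + 1) = 1 := by
    have h1 := hpow m w0
    rw [hxn, ac_one, hxw w0 hw0, sub_self, smul_zero, smul_zero, add_zero] at h1
    have h2 : (1 - c ^ (m + 1)) • w0 = 0 := by rw [sub_smul, one_smul, ← h1, sub_self]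
    have h3 := (smul_eq_zero.1 h2).resolve_right hw0ne
    linear_combination -h3
  have hc0 : c ≠ 0 := by
    rintro h
    rw [h, zero_pow (Nat.succ_ne_zero m)] at hc1
    exact zero_ne_one hc1
  have hsc : ∀ v, ac x v = c • v := by
    intro v
    have h1 := hpow m v
    rw [hxn, ac_one, hc1, one_smul] at h1
    have h2 : ((m + 1 : ℕ) : F) • c ^ m • (ac x v - c • v) = 0 := by
      have := add_left_cancel (a := v) (b := 0) (c := ((m + 1 : ℕ) : F) • c ^ m • (ac x v - c • v)) (by rw [add_zero]; exact h1)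
      exact this.symm
    have h3 : ((m + 1 : ℕ) : F) ≠ 0 := by
      rw [Ne, CharP.cast_eq_zero_iff F p]; exact hxp
    have h4 := (smul_eq_zero.1 ((smul_eq_zero.1 h2).resolve_left h3)).resolve_left (pow_ne_zero _ hc0)
    exact sub_eq_zero.1 h4
  rw [Subgroup.mem_center_iff]
  intro g
  apply ac_ext
  intro v
  rw [ac_mul, ac_mul, hsc, hsc, ac_smul]

/-- the normalizer of `D` normalizes `AW (fx D)` -/
theorem norm_AW {D : Subgroup SLn} {g : SLn} (hg : g ∈ Subgroup.normalizer (D : Set SLn)) {a : SLn} (ha : a ∈ AW (fx D)) :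
    g * a * g⁻¹ ∈ AW (fx D) := by
  have hfix : ∀ g ∈ Subgroup.normalizer (D : Set SLn), ∀ v ∈ fx D, ac g v ∈ fx D := by
    intro g hg v hv d hd
    have h1 : g⁻¹ * d * g ∈ D := by
      have := (Subgroup.mem_normalizer_iff.1 ((Subgroup.normalizer (D : Set SLn)).inv_mem hg) d).1 hd
      rwa [inv_inv] at this
    have h2 := hv _ h1
    have h3 : d * g = g * (g⁻¹ * d * g) := by group
    rw [← ac_mul, h3, ac_mul, h2]
  refine ⟨fun v hv => ?_, fun v => ?_⟩
  · have h1 := ha.1 _ (hfix g⁻¹ ((Subgroup.normalizer (D : Set SLn)).inv_mem hg) v hv)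
    rw [ac_mul, ac_mul, h1, ac_inv']
  · have h1 := hfix g hg _ (ha.2 (ac g⁻¹ v))
    rw [ac_sub, ac_inv'] at h1
    rw [ac_mul, ac_mul]
    exact h1

/-- abstract radical argument -/
theorem rad_aux {G : Type*} [Group G] [Fintype G] {p : ℕ} [hp : Fact p.Prime] {D A : Subgroup G} (hD : IsPGroup p D)
    (hAp : IsPGroup p A) (hDn : D ≤ Subgroup.normalizer (A : Set G))
    (hN : A ⊓ Subgroup.normalizer (D : Set G) ≤ D) : A ≤ D := by
  have hSp : IsPGroup p (D ⊔ A : Subgroup G) := IsPGroup.to_sup_of_normal_right' hD hAp hDn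
  by_contra hcon
  have hlt : D < D ⊔ A := lt_of_le_of_ne le_sup_left (fun h => hcon (by rw [h]; exact le_sup_right))
  have h1 := H25.KG.lt_normalizer hSp hlt
  obtain ⟨y, hy, hyD⟩ := Set.exists_of_ssubset h1
  obtain ⟨hyS, hyN⟩ := hy
  have hyS' : y ∈ ((D ⊔ A : Subgroup G) : Set G) := hyS
  rw [Subgroup.coe_mul_of_left_le_normalizer_right D A hDn] at hyS'
  obtain ⟨d, hd, a, ha, rfl⟩ := Set.mem_mul.1 hyS'
  apply hyD
  have h2 : a ∈ Subgroup.normalizer (D : Set G) := by
    have := (Subgroup.normalizer (D : Set G)).mul_mem ((Subgroup.normalizer (D : Set G)).inv_mem (Subgroup.le_normalizer hd)) hyN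
    rwa [inv_mul_cancel_left] at this
  exact D.mul_mem hd (hN ⟨ha, h2⟩)

theorem le_of_radical [Fintype F] [Fintype SLn] {p : ℕ} [hp : Fact p.Prime] [CharP F p] {D : Subgroup SLn} (hD : IsPGroup p D)
    (hrad : ∀ N : Subgroup SLn, IsPGroup p N → N ≤ Subgroup.normalizer (D : Set SLn) →
      (∀ g ∈ Subgroup.normalizer (D : Set SLn), ∀ x ∈ N, g * x * g⁻¹ ∈ N) → N ≤ D) : AW (fx D) ≤ D := by
  refine rad_aux hD (AW_pg (fx D)) ?_ ?_
  · intro d hd
    rw [Subgroup.mem_normalizer_iff]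
    intro a
    constructor
    · intro ha; exact norm_AW (Subgroup.le_normalizer hd) ha
    · intro ha
      have := norm_AW (Subgroup.le_normalizer (D.inv_mem hd)) ha
      have e : d⁻¹ * (d * a * d⁻¹) * d⁻¹⁻¹ = a := by group
      rwa [e] at this
  · refine hrad _ ((AW_pg (fx D)).to_le inf_le_left) inf_le_right ?_
    rintro g hg x ⟨hx1, hx2⟩
    exact ⟨norm_AW hg hx1, (Subgroup.normalizer (D : Set SLn)).mul_mem ((Subgroup.normalizer (D : Set SLn)).mul_mem hg hx2)
      ((Subgroup.normalizer (D : Set SLn)).inv_mem hg)⟩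

/-- defect groups are radical -/
theorem radical {G : Type*} [Group G] [Fintype G] {p : ℕ} [hp : Fact p.Prime] {M : Ideal AlgInt} (hM : IsPModular p M)
    {B : Set (IrrCharacter G)} (hB : IsPBlock M B) {D : Subgroup G} (hD : IsDefectGroup p M B D)
    (N : Subgroup G) (hN : IsPGroup p N) (hle : N ≤ Subgroup.normalizer (D : Set G))
    (hn : ∀ g ∈ Subgroup.normalizer (D : Set G), ∀ x ∈ N, g * x * g⁻¹ ∈ N) : N ≤ D := by
  haveI : Fintype (Subgroup.normalizer (D : Set G)) := Fintype.ofFinite _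
  obtain ⟨b, hb, hbD, -⟩ := first_main_down hM (IsDefectGroup.isPGroup' hD) hB hD
  haveI : (N.subgroupOf (Subgroup.normalizer (D : Set G))).Normal :=
    ⟨fun x hx g => hn g g.2 x hx⟩
  have hN' : IsPGroup p (N.subgroupOf (Subgroup.normalizer (D : Set G))) :=
    IsPGroup.of_equiv hN (Subgroup.subgroupOfEquivOfLe hle).symm
  have h1 := normal_le_defectGroup hM hb hbD _ hN'
  intro x hx
  exact Subgroup.mem_subgroupOf.1 (h1 (Subgroup.mem_subgroupOf.2 (show ((⟨x, hle hx⟩ : Subgroup.normalizer (D : Set G)) : G) ∈ N from hx)))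

theorem defect_zero_iff {G : Type*} [Group G] [Fintype G] {p : ℕ} [hp : Fact p.Prime] {M : Ideal AlgInt} (hM : IsPModular p M)
    {B : Set (IrrCharacter G)} (hB : IsPBlock M B) {D : Subgroup G} (hD : IsDefectGroup p M B D) : blockDefect p B = 0 ↔ D = ⊥ := by
  have h1 := card_defectGroup hM hB hD
  constructor
  · intro h
    rw [h, pow_zero] at h1
    exact Subgroup.card_eq_one.1 h1
  · intro h
    rw [h, Subgroup.card_bot] at h1
    by_contra h2
    have := Nat.one_lt_pow h2 hp.out.one_lt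
    omega

/-- the dichotomy -/
theorem defect_full [Fintype F] [Fintype SLn] {p : ℕ} [hp : Fact p.Prime] [CharP F p] (hn : 0 < n) {M : Ideal AlgInt}
    (hM : IsPModular p M) {B : Set (IrrCharacter SLn)} (hB : IsPBlock M B) (h0 : blockDefect p B ≠ 0) :
    blockDefect p B = (Nat.card SLn).factorization p := by
  haveI := hM.2.1
  obtain ⟨D, hD⟩ := exists_defectGroup (p := p) hB
  have hDp := IsDefectGroup.isPGroup' hD
  have hne : D ≠ ⊥ := fun h => h0 ((defect_zero_iff hM hB hD).2 h)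
  have hA := le_of_radical hDp (fun N hN hle hn => radical hM hB hD N hN hle hn)
  obtain ⟨x, hx, hxD⟩ := isDefectGroup_iff.1 hD
  have hreg := defectClass_regular hM hB hx
  have hc := scalar_of hn hDp hne hA hxD.mem_centralizer hreg
  have h1 := hxD.card
  have h2 : Subgroup.centralizer ({x} : Set SLn) = ⊤ := by
    rw [eq_top_iff]
    intro g _
    rw [Subgroup.mem_centralizer_singleton_iff]
    exact Subgroup.mem_center_iff.1 hc g
  rw [h2, Subgroup.card_top, card_defectGroup hM hB hD] at h1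
  exact Nat.pow_right_injective hp.out.two_le h1

end Cfsg.Agent.H25.SLd
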