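import Cfsg.Agent.H25_SLd
import Cfsg.Agent.S2439

/-! Blocks of `SL_n` in the defining characteristic: counting. -/

set_option autoImplicit false
set_option linter.unusedSectionVars false

namespace Cfsg.Agent.H25.SLe

open Matrix Cfsg Cfsg.Agent.H25.SLa Cfsg.Agent.H25.SLb Cfsg.Agent.H25.Whi Cfsg.Agent.H3.CharIrr Cfsg.Agent.H3.CharInd Cfsg.Agent.H3.CharComplete
  Cfsg.Agent.H10.BlockDefect Cfsg.Agent.H10.BlockMain Cfsg.Agent.H10.BlockFMT2 Cfsg.Agent.H25.SLc Cfsg.Agent.H25.SLd

section general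

variable {G : Type*} [Group G] [Fintype G] {p : ℕ} [hp : Fact p.Prime] {M : Ideal AlgInt}

theorem charDegree_eq {χ : G → ℂ} {k : ℕ} (h : χ 1 = k) : charDegree χ = k := by
  unfold charDegree
  rw [h, Complex.natCast_re, Nat.floor_natCast]

theorem dz_iff {χ : G → ℂ} (hχ : IsIrrCharacter G χ) : DZ p χ ↔ (Nat.card G).factorization p ≤ (charDegree χ).factorization p := by
  obtain ⟨k, hk0, hk⟩ := IsIrr.one_eq_nat hχ
  rw [charDegree_eq hk]
  constructor
  · rintro ⟨-, d, hd⟩
    rw [hk] at hd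
    have h1 : k = p ^ (Nat.card G).factorization p * d := by exact_mod_cast hd
    rw [← hp.out.pow_dvd_iff_le_factorization hk0.ne']
    exact ⟨d, h1⟩
  · intro h
    rw [← hp.out.pow_dvd_iff_le_factorization hk0.ne'] at h
    obtain ⟨d, hd⟩ := h
    exact ⟨hχ, d, by rw [hk]; exact_mod_cast hd⟩

theorem dz_of_defect {B : Set (IrrCharacter G)} (h0 : blockDefect p B = 0) {χ : IrrCharacter G} (hχ : χ ∈ B) :
    DZ p (χ : G → ℂ) := by
  rw [dz_iff χ.2]
  unfold blockDefect at h0
  exact (Nat.sub_eq_zero_iff_le.1 h0).trans (Nat.sInf_le ⟨χ, hχ, rfl⟩)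

theorem defect_of_dz (hM : IsPModular p M) {χ : IrrCharacter G} (hχ : DZ p (χ : G → ℂ)) :
    blockOf M (χ : G → ℂ) = {χ} ∧ blockDefect p (blockOf M (χ : G → ℂ)) = 0 := by
  have h1 := (dz_iff χ.2).1 hχ
  have h2 : blockOf M (χ : G → ℂ) = {χ} := by
    rw [← Cfsg.Agent.S0914.result p M hM χ]
    obtain ⟨k, hk0, hk⟩ := IsIrr.one_eq_nat χ.2
    rw [charDegree_eq hk] at h1 ⊢
    intro hd
    have hG : Nat.card G ≠ 0 := Nat.card_pos.ne'
    have hkd : k ∣ Nat.card G := by
      obtain ⟨m, -, hm, hmd⟩ := Cfsg.Agent.H3.CharInt.IsIrr.dvd_card χ.2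
      have : k = m := by rw [hk] at hm; exact_mod_cast hm
      rwa [this]
    have h3 : (Nat.card G / k).factorization p = 0 := by
      rw [Nat.factorization_div hkd]
      simp only [Finsupp.coe_tsub, Pi.sub_apply]
      omega
    have h4 : 0 < (Nat.card G / k).factorization p := hp.out.factorization_pos_of_dvd
      (Nat.div_pos (Nat.le_of_dvd (Nat.pos_of_ne_zero hG) hkd) hk0).ne' hd
    omega
  refine ⟨h2, ?_⟩
  rw [h2]
  unfold blockDefect
  rw [Set.image_singleton, csInf_singleton]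
  omega

end general

variable {F : Type*} [Field F] {n : ℕ}

local notation "SLn" => SpecialLinearGroup (Fin n) F

theorem not_dvd_sub [Fintype F] {p : ℕ} [hp : Fact p.Prime] [CharP F p] : ¬ p ∣ Fintype.card F - 1 := by
  intro h2
  obtain ⟨f, hpF, hf⟩ := FiniteField.card F p
  have h3 : p ∣ Fintype.card F := by rw [hf]; exact dvd_pow_self p f.pos.ne'
  have h4 : p ∣ Fintype.card F - (Fintype.card F - 1) := Nat.dvd_sub h3 h2
  rw [Nat.sub_sub_self Fintype.card_pos] at h4
  exact hp.out.one_lt.ne' (Nat.dvd_one.1 h4)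

theorem p_dvd [Fintype F] [Fintype SLn] {p : ℕ} [hp : Fact p.Prime] [CharP F p] (hn : 2 ≤ n) : p ∣ Nat.card SLn := by
  obtain ⟨ψ, g0, h⟩ := exists_ws (F := F) (n := n) (p := p) hn
  exact h.pdvd

/-- there is exactly one block of defect zero -/
theorem one_zero [Fintype F] [Fintype SLn] {p : ℕ} [hp : Fact p.Prime] [CharP F p] (hn : 2 ≤ n) {M : Ideal AlgInt}
    (hM : IsPModular p M) : Nat.card {B : Set (IrrCharacter SLn) // IsPBlock M B ∧ blockDefect p B = 0} = 1 := by
  haveI := hM.2.1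
  rw [Nat.card_eq_one_iff_unique]
  constructor
  · refine ⟨?_⟩
    rintro ⟨B, hB, h0⟩ ⟨B', hB', h0'⟩
    apply Subtype.ext
    show B = B'
    by_cases hcase : 3 ≤ n ∨ p = 2
    · obtain ⟨χ, rfl⟩ := hB
      obtain ⟨χ', rfl⟩ := hB'
      have h1 : χ ∈ blockOf M (χ : SLn → ℂ) := H10.BlockIdem.mem_blockOf_self χ
      have h2 : χ' ∈ blockOf M (χ' : SLn → ℂ) := H10.BlockIdem.mem_blockOf_self χ'
      rw [unique hn hcase (dz_of_defect h0 h1) (dz_of_defect h0' h2)]
    · push Not at hcase
      have hn2 : n = 2 := by omega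
      subst hn2
      obtain ⟨hbl, -, hdef⟩ := Cfsg.Agent.S2439.result (F := F) p hcase.2 M hM
      obtain ⟨P⟩ : Nonempty (Sylow p (SpecialLinearGroup (Fin 2) F)) := inferInstance
      obtain ⟨hd1, hd2⟩ := hdef P
      have hP : (P : Subgroup (SpecialLinearGroup (Fin 2) F)) ≠ ⊥ := by
        intro h
        have h1 := P.card_eq_multiplicity
        rw [h, Subgroup.card_bot] at h1
        have h2 := hp.out.factorization_pos_of_dvd Nat.card_pos.ne' (p_dvd (F := F) (n := 2) (p := p) hn)
        have := Nat.one_lt_pow h2.ne' hp.out.one_lt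
        omega
      have key : ∀ B : Set (IrrCharacter (SpecialLinearGroup (Fin 2) F)), IsPBlock M B → blockDefect p B = 0 →
          B = {χ : IrrCharacter (SpecialLinearGroup (Fin 2) F) | (χ : SpecialLinearGroup (Fin 2) F → ℂ) 1 = (Fintype.card F : ℂ)} := by
        intro B hB h0
        rcases (hbl B).1 hB with h | h | h
        · exact h
        · rw [← h] at hd1
          exact absurd ((defect_zero_iff hM hB hd1).1 h0) hP
        · rw [← h] at hd2
          exact absurd ((defect_zero_iff hM hB hd2).1 h0) hP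
      rw [key B hB h0, key B' hB' h0']
  · obtain ⟨χ, hχ⟩ := exists_dz (F := F) (n := n) (p := p) (by omega)
    exact ⟨⟨blockOf M χ, ⟨⟨χ, hχ.1⟩, rfl⟩, (defect_of_dz hM (χ := ⟨χ, hχ.1⟩) hχ).2⟩⟩

theorem sylow_AW [Fintype F] [Fintype SLn] {p : ℕ} [hp : Fact p.Prime] [CharP F p] (P : Sylow p SLn) :
    AW (fx (P : Subgroup SLn)) ≤ P := by
  apply le_of_radical P.2
  intro N hN hle _
  have h1 : IsPGroup p (N ⊔ P : Subgroup SLn) := IsPGroup.to_sup_of_normal_right' hN P.2 hle
  have h2 := P.is_maximal' h1 le_sup_right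
  rw [← h2]
  exact le_sup_left

/-- the number of blocks -/
theorem count [Fintype F] [Fintype SLn] {p : ℕ} [hp : Fact p.Prime] [CharP F p] (hn : 2 ≤ n) {M : Ideal AlgInt}
    (hM : IsPModular p M) : Nat.card {B : Set (IrrCharacter SLn) // IsPBlock M B} = Nat.card (Subgroup.center SLn) + 1 := by
  classical
  haveI := hM.2.1
  obtain ⟨P⟩ : Nonempty (Sylow p SLn) := inferInstance
  have hpG := p_dvd (F := F) (n := n) (p := p) hn
  have hP : (P : Subgroup SLn) ≠ ⊥ := by
    intro h
    have h1 := P.card_eq_multiplicity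
    rw [h, Subgroup.card_bot] at h1
    have h2 := hp.out.factorization_pos_of_dvd Nat.card_pos.ne' hpG
    have := Nat.one_lt_pow h2.ne' hp.out.one_lt
    omega
  have hiff : ∀ B : Set (IrrCharacter SLn), IsPBlock M B → (IsDefectGroup p M B (P : Subgroup SLn) ↔ ¬ blockDefect p B = 0) := by
    intro B hB
    constructor
    · intro hD h0
      exact hP ((defect_zero_iff hM hB hD).1 h0)
    · intro h0
      have h1 := defect_full (by omega) hM hB h0
      obtain ⟨D, hD⟩ := exists_defectGroup (p := p) hB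
      have h2 := card_defectGroup hM hB hD
      rw [h1] at h2
      let D' : Sylow p SLn := Sylow.ofCard D h2
      obtain ⟨g, hg⟩ := MulAction.exists_smul_eq SLn D' P
      have h3 := isDefectGroup_conj hD g
      have h4 : D.map (MulAut.conj g).toMonoidHom = (P : Subgroup SLn) := by
        rw [← hg]
        rfl
      rwa [h4] at h3
  have hsplit : Nat.card {B : Set (IrrCharacter SLn) // IsPBlock M B} =
      Nat.card {B : Set (IrrCharacter SLn) // IsPBlock M B ∧ IsDefectGroup p M B (P : Subgroup SLn)} +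
        Nat.card {B : Set (IrrCharacter SLn) // IsPBlock M B ∧ blockDefect p B = 0} := by
    haveI : Finite {B : Set (IrrCharacter SLn) // IsPBlock M B ∧ IsDefectGroup p M B (P : Subgroup SLn)} := Subtype.finite
    haveI : Finite {B : Set (IrrCharacter SLn) // IsPBlock M B ∧ blockDefect p B = 0} := Subtype.finite
    rw [← Nat.card_sum]
    refine Nat.card_congr ⟨fun B => if h : blockDefect p B.1 = 0 then Sum.inr ⟨B.1, B.2, h⟩ else
      Sum.inl ⟨B.1, B.2, (hiff B.1 B.2).2 h⟩, fun s => Sum.elim (fun B => ⟨B.1, B.2.1⟩) (fun B => ⟨B.1, B.2.1⟩) s, ?_, ?_⟩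
    · intro B
      beta_reduce
      split_ifs <;> rfl
    · rintro (B | B)
      · have h1 := (hiff B.1 B.2.1).1 B.2.2
        exact dif_neg h1
      · exact dif_pos B.2.2
  rw [hsplit, one_zero hn hM, H10.BlockMax.main hM P]
  congr 1
  -- central elements
  have hcen : ∀ z ∈ Subgroup.center SLn, ¬ p ∣ orderOf z := by
    intro z hz hd
    obtain ⟨r, -, hr⟩ := Matrix.SpecialLinearGroup.mem_center_iff.1 hz
    have hr0 : r ≠ 0 := by
      rintro rfl
      have h1 := isUnit_mt z
      have h2 : mt z = 0 := by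
        show z.1 = 0
        rw [← hr]; simp
      rw [h2] at h1
      haveI : Nonempty (Fin n) := ⟨⟨0, by omega⟩⟩
      exact not_isUnit_zero h1
    have h1 : z ^ (Fintype.card F - 1) = 1 := by
      apply mt_inj
      have h2 : ∀ k : ℕ, mt (z ^ k) = scalar (Fin n) (r ^ k) := by
        intro k
        induction k with
        | zero => rw [pow_zero, mt_one, pow_zero, map_one]
        | succ k ih =>
          rw [pow_succ, mt_mul, ih, pow_succ, map_mul]
          congr 1
          exact hr.symm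
      rw [h2, FiniteField.pow_card_sub_one_eq_one r hr0, mt_one, map_one]
    exact not_dvd_sub (F := F) (p := p) (hd.trans (orderOf_dvd_of_pow_eq_one h1))
  have hcN : ∀ z ∈ Subgroup.center SLn, z ∈ Subgroup.normalizer ((P : Subgroup SLn) : Set SLn) := by
    intro z hz
    rw [Subgroup.mem_normalizer_iff]
    intro h
    rw [← (Subgroup.mem_center_iff.1 hz h), mul_inv_cancel_right]
  symm
  refine Nat.card_congr (Equiv.ofBijective (fun z => ⟨ConjClasses.mk ⟨z.1, hcN z.1 z.2⟩, ?_⟩) ⟨?_, ?_⟩)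
  · intro m hm
    rw [ConjClasses.mk_eq_mk_iff_isConj, isConj_iff] at hm
    obtain ⟨c, hc⟩ := hm
    have h1 : (m : SLn) = z.1 := by
      have h2 := congrArg (fun t : Subgroup.normalizer ((P : Subgroup SLn) : Set SLn) => (t : SLn)) hc
      have h3 : (c : SLn) * m * (c : SLn)⁻¹ = z.1 := h2
      have h4 := Subgroup.mem_center_iff.1 z.2 (c : SLn)
      have h5 : (m : SLn) = (c : SLn)⁻¹ * z.1 * c := by rw [← h3]; group
      rw [h5, mul_assoc, ← h4]; group
    constructor
    · rw [← Subgroup.orderOf_coe, h1]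
      exact hcen z.1 z.2
    · rw [h1, Subgroup.mem_centralizer_iff]
      intro h _
      exact Subgroup.mem_center_iff.1 z.2 h
  · intro z z' h
    have h1 := congrArg Subtype.val h
    beta_reduce at h1
    rw [ConjClasses.mk_eq_mk_iff_isConj, isConj_iff] at h1
    obtain ⟨c, hc⟩ := h1
    apply Subtype.ext
    have h2 := congrArg (fun t : Subgroup.normalizer ((P : Subgroup SLn) : Set SLn) => (t : SLn)) hc
    have h3 : (c : SLn) * z.1 * (c : SLn)⁻¹ = z'.1 := h2
    have h4 := Subgroup.mem_center_iff.1 z.2 (c : SLn)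
    rw [h4, mul_inv_cancel_right] at h3
    exact h3
  · rintro ⟨C, hC⟩
    obtain ⟨m, rfl⟩ := ConjClasses.mk_surjective C
    obtain ⟨h1, h2⟩ := hC m rfl
    have h3 : (m : SLn) ∈ Subgroup.center SLn :=
      scalar_of (by omega) P.2 hP (sylow_AW P) h2 (by rwa [Subgroup.orderOf_coe])
    exact ⟨⟨m, h3⟩, rfl⟩

end Cfsg.Agent.H25.SLe
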