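import Cfsg.Agent.H25_Sub8

/-! The complementary contribution matrix. -/

open scoped ComplexConjugate

namespace Cfsg.Agent.H25.Sub9

open Cfsg Cfsg.Agent.H3 Cfsg.Agent.H3.CharBasic Cfsg.Agent.H3.CharIrr Cfsg.Agent.H3.CharComplete
  Cfsg.Agent.H25.Brauer Cfsg.Agent.H25.BrauerP Cfsg.Agent.H25.Elem
  Cfsg.Agent.H10.Char Cfsg.Agent.H10.BlockLoc Cfsg.Agent.H10.BlockAlg Cfsg.Agent.H10.BlockIdem
  Cfsg.Agent.H10.BlockOrth Cfsg.Agent.H10.BlockHZ Cfsg.Agent.H10.BlockInd Cfsg.Agent.H10.PPart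
  Cfsg.Agent.H10.BlockSMT Cfsg.Agent.H10.BlockSMT2 Cfsg.Agent.H10.BlockPrin Cfsg.Agent.H10.BlockDefect
  Cfsg.Agent.H25.BlockReg Cfsg.Agent.H25.BlockReg2 Cfsg.Agent.H25.BlockReg3 Cfsg.Agent.H25.IndCong
  Cfsg.Agent.H25.Sub Cfsg.Agent.H25.Sub2 Cfsg.Agent.H25.Avg Cfsg.Agent.H3.CharGal
  Cfsg.Agent.H25.Sub3 Cfsg.Agent.H25.Sub4 Cfsg.Agent.H25.Sub5 Cfsg.Agent.H25.Sub6 Cfsg.Agent.H25.Sub7
  Cfsg.Agent.H25.Sub8

theorem abs_main {n : ℕ} [NeZero n] {I : Type*} [Fintype I] [DecidableEq I] {N : I → I → Cyc n} {q : ℕ}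
    (h : Herm N q) (hq : 0 < q) (htr : ∑ i, Herm.T N i ≤ 3 * q) (s t : Finset I)
    (hdisj : Disjoint s t) (w : I → ℕ) (hws : ∀ χ ∈ s, w χ = 1)
    (hT : ∀ χ ∈ s, ∃ c : ℕ, Herm.T N χ = c ∧ ¬ 2 ∣ c)
    (hne : ∀ χ ∈ s, ∀ ψ ∈ s ∪ t, N χ ψ ≠ 0 ∧ w ψ ≠ 0 ∧ IsIntegral ℤ ((N χ ψ : ℂ) / (w ψ : ℂ)))
    (ht : ∀ χ ∈ t, 2 * (w χ : ℝ) ≤ Herm.T N χ) :
    3 * s.card + 2 * ∑ χ ∈ t, w χ ≤ 3 * q := by
  classical
  by_cases hex : ∃ χ ∈ s, Herm.T N χ = 1
  · obtain ⟨χ, hχ, h1⟩ := hex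
    have h2 := h.weight_le χ (s ∪ t) w (hne χ hχ)
    rw [h1, mul_one] at h2
    have h3 : (∑ ψ ∈ s ∪ t, (w ψ) ^ 2) ≤ q := by exact_mod_cast h2
    rw [Finset.sum_union hdisj] at h3
    have h4 : ∑ ψ ∈ s, (w ψ) ^ 2 = s.card := by
      rw [Finset.sum_congr rfl fun ψ hψ => by rw [hws ψ hψ, one_pow]]
      rw [Finset.sum_const, smul_eq_mul, mul_one]
    have h5 : ∑ ψ ∈ t, w ψ ≤ ∑ ψ ∈ t, (w ψ) ^ 2 := by
      refine Finset.sum_le_sum fun ψ hψ => ?_
      have : 1 ≤ w ψ := Nat.one_le_iff_ne_zero.2 (hne χ hχ ψ (Finset.mem_union_right _ hψ)).2.1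
      nlinarith
    rw [h4] at h3
    omega
  · push Not at hex
    have h3 : ∑ χ ∈ s ∪ t, Herm.T N χ ≤ ∑ χ, Herm.T N χ :=
      Finset.sum_le_sum_of_subset_of_nonneg (Finset.subset_univ _)
        (fun χ _ _ => h.T_nonneg hq χ)
    rw [Finset.sum_union hdisj] at h3
    have h4 : (3 * s.card : ℝ) ≤ ∑ χ ∈ s, Herm.T N χ := by
      have : (3 * s.card : ℝ) = ∑ χ ∈ s, (3 : ℝ) := by rw [Finset.sum_const, nsmul_eq_mul, mul_comm]
      rw [this]
      refine Finset.sum_le_sum fun χ hχ => ?_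
      obtain ⟨c, hc, hc2⟩ := hT χ hχ
      have h5 := hex χ hχ
      rw [hc] at h5 ⊢
      have h6 : c ≠ 1 := by rintro rfl; exact h5 (by norm_num)
      have : 3 ≤ c := by omega
      exact_mod_cast this
    have h5 : ((2 * ∑ χ ∈ t, w χ : ℕ) : ℝ) ≤ ∑ χ ∈ t, Herm.T N χ := by
      rw [Finset.mul_sum]
      push_cast
      exact Finset.sum_le_sum fun χ hχ => ht χ hχ
    have h6 : ((3 * s.card + 2 * ∑ χ ∈ t, w χ : ℕ) : ℝ) ≤ ((3 * q : ℕ) : ℝ) := by
      push_cast at h5 ⊢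
      linarith
    exact_mod_cast h6

section
variable {M : Ideal AlgInt} {G : Type*} [Group G] [Fintype G] {x : G}
  [Fintype (Subgroup.centralizer ({x} : Set G))]
  [Fintype (IrrCharacter G)]
  [Fintype (IrrCharacter (Subgroup.centralizer ({x} : Set G)))]

local instance two_fact9 : Fact (Nat.Prime 2) := ⟨Nat.prime_two⟩

theorem T_form (hM : IsPModular 2 M) (hx : ∃ k : ℕ, orderOf x = 2 ^ k)
    {b : Set (IrrCharacter (Subgroup.centralizer ({x} : Set G)))}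
    {B : Set (IrrCharacter G)} (hind : IsInducedBlock M (Subgroup.centralizer ({x} : Set G)) b B)
    (hmaj : blockDefect 2 b = blockDefect 2 B)
    {χ : IrrCharacter G} (hχ : χ ∈ B) (h0 : 1 ≤ blockHeight 2 B (χ : G → ℂ)) :
    ∃ t : ℕ, 0 < t ∧
      Herm.T (NC 2 x b) χ = ((2 ^ (blockHeight 2 B (χ : G → ℂ) + 1) * t : ℕ) : ℝ) := by
  haveI := hM.2.1
  obtain ⟨k, hk⟩ := hx
  have hx : ∃ k : ℕ, orderOf x = 2 ^ k := ⟨k, hk⟩
  set q : ℕ := 2 ^ blockHeight 2 B (χ : G → ℂ) with hq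
  have hq0 : (q : ℂ) ≠ 0 := by rw [hq]; exact_mod_cast (pow_pos (by norm_num) _).ne'
  have hq0' : (q : Cyc (orderOf x)) ≠ 0 := by
    intro h
    exact hq0 (by exact_mod_cast congrArg (fun z : Cyc (orderOf x) => (z : ℂ)) h)
  let z : Cyc (orderOf x) := NC 2 x b χ χ / (q : Cyc (orderOf x))
  have hz : (z : ℂ) = NN 2 x b χ χ / ((2 ^ blockHeight 2 B (χ : G → ℂ) : ℕ) : ℂ) := by
    simp only [z]
    push_cast
    rw [NC_coe, hq]
    push_cast
    rfl
  have h1 : IsIntegral ℤ (z : ℂ) := by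
    rw [hz]; exact maj_int hM hx hind.1 hind.2.1 hmaj χ hχ
  have h2 : conj (z : ℂ) = (z : ℂ) := by
    rw [hz, map_div₀, Complex.conj_natCast, NN_real]
  have h3 : MemLocalIdeal M (z : ℂ) := by
    rw [hz]; exact maj_diag hM hx hind hmaj hχ h0
  obtain ⟨t, ht, ht2⟩ := real_int hM hk z h1 h2
  have h4 : (2 : ℤ) ∣ t := by
    refine (ideal_intCast_iff hM t).1 ?_
    have := ideal_sub h3 ht2
    rwa [sub_sub_cancel] at this
  have h5 : NC 2 x b χ χ = ((q : ℤ) : Cyc (orderOf x)) * z := by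
    simp only [z]
    push_cast
    rw [mul_div_cancel₀ _ hq0']
  have h6 : Herm.T (NC 2 x b) χ = ((q * t : ℤ) : ℝ) := by
    unfold Herm.T
    rw [h5, av_int_mul, ht]
    have : ((q : ℤ) : ℂ) * (t : ℂ) = (((q * t : ℤ) : ℝ) : ℂ) := by push_cast; rfl
    rw [this, Complex.ofReal_re]
  have h7 : 0 < Herm.T (NC 2 x b) χ := by
    have := (NC_herm hM hx hind.1).one_le_T (q_pos b) χ (by
      intro h
      exact maj_diag_ne hM hx hind hmaj hχ (by rw [← NC_coe, h]; rfl))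
    linarith
  rw [h6] at h7 ⊢
  have h8 : (0 : ℤ) < q * t := by exact_mod_cast h7
  have hqpos : (0 : ℤ) < q := by rw [hq]; positivity
  have h9 : 0 < t := by
    by_contra hcon
    have : (q : ℤ) * t ≤ 0 := mul_nonpos_of_nonneg_of_nonpos hqpos.le (by omega)
    omega
  obtain ⟨r, hr⟩ := h4
  have hr0 : 0 < r := by omega
  obtain ⟨r', hr'⟩ := Int.eq_ofNat_of_zero_le hr0.le
  refine ⟨r', by omega, ?_⟩
  rw [hr, hr', pow_succ, hq]
  push_cast
  ring

open Classical in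
/-- the complementary matrix -/
noncomputable def CC (x : G) [Fintype (Subgroup.centralizer ({x} : Set G))]
    [Fintype (IrrCharacter (Subgroup.centralizer ({x} : Set G)))]
    (b : Set (IrrCharacter (Subgroup.centralizer ({x} : Set G)))) (B : Set (IrrCharacter G))
    (χ ψ : IrrCharacter G) : Cyc (orderOf x) :=
  (if χ = ψ ∧ χ ∈ B then ((2 ^ blockDefect 2 b : ℕ) : Cyc (orderOf x)) else 0) - NC 2 x b χ ψ

theorem NC_zero_left (hM : IsPModular 2 M) (hx : ∃ k : ℕ, orderOf x = 2 ^ k)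
    {b : Set (IrrCharacter (Subgroup.centralizer ({x} : Set G)))}
    {B : Set (IrrCharacter G)} (hind : IsInducedBlock M (Subgroup.centralizer ({x} : Set G)) b B)
    {χ : IrrCharacter G} (hχ : χ ∉ B) (ψ : IrrCharacter G) : NC 2 x b χ ψ = 0 := by
  apply Subtype.ext
  rw [NC_coe]
  unfold NN
  rw [mm_zero hM hx hind hχ, mul_zero]
  rfl

theorem NC_zero_right (hM : IsPModular 2 M) (hx : ∃ k : ℕ, orderOf x = 2 ^ k)
    {b : Set (IrrCharacter (Subgroup.centralizer ({x} : Set G)))}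
    {B : Set (IrrCharacter G)} (hind : IsInducedBlock M (Subgroup.centralizer ({x} : Set G)) b B)
    {ψ : IrrCharacter G} (hψ : ψ ∉ B) (χ : IrrCharacter G) : NC 2 x b χ ψ = 0 := by
  apply Subtype.ext
  rw [(NC_herm hM hx hind.1).herm ψ χ, NC_zero_left hM hx hind hψ]
  simp

theorem CC_herm (hM : IsPModular 2 M) (hx : ∃ k : ℕ, orderOf x = 2 ^ k)
    {b : Set (IrrCharacter (Subgroup.centralizer ({x} : Set G)))}
    {B : Set (IrrCharacter G)} (hind : IsInducedBlock M (Subgroup.centralizer ({x} : Set G)) b B) :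
    Herm (CC x b B) (2 ^ blockDefect 2 b) where
  int := fun χ ψ => by
    classical
    unfold CC
    have h0 : ((((if χ = ψ ∧ χ ∈ B then ((2 ^ blockDefect 2 b : ℕ) : Cyc (orderOf x)) else 0) -
      NC 2 x b χ ψ : Cyc (orderOf x))) : ℂ) =
      (if χ = ψ ∧ χ ∈ B then ((2 ^ blockDefect 2 b : ℕ) : ℂ) else 0) - (NC 2 x b χ ψ : ℂ) := by
      rw [AddSubgroupClass.coe_sub]
      congr 1
      split_ifs
      · rfl
      · rfl
    rw [h0]
    refine IsIntegral.sub ?_ ((NC_herm hM hx hind.1).int χ ψ)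
    split_ifs
    · exact (isIntegral_algebraMap (R := ℤ) (A := ℂ) (x := ((2 ^ blockDefect 2 b : ℕ) : ℤ))) |>
        fun h => by simpa using h
    · exact isIntegral_zero
  herm := fun χ ψ => by
    unfold CC
    rw [AddSubgroupClass.coe_sub, AddSubgroupClass.coe_sub, (NC_herm hM hx hind.1).herm χ ψ, map_sub]
    congr 1
    by_cases h : χ = ψ
    · subst h
      by_cases hB : χ ∈ B
      · rw [if_pos ⟨rfl, hB⟩]
        have : (((2 ^ blockDefect 2 b : ℕ) : Cyc (orderOf x)) : ℂ) = ((2 ^ blockDefect 2 b : ℕ) : ℂ) := rfl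
        rw [this, Complex.conj_natCast]
      · rw [if_neg (fun h => hB h.2)]; simp
    · rw [if_neg (fun h' => h h'.1.symm), if_neg (fun h' => h h'.1)]; simp
  mul := fun χ ρ => by
    classical
    have h1 := (NC_herm hM hx hind.1).mul χ ρ
    unfold CC
    set Q : Cyc (orderOf x) := ((2 ^ blockDefect 2 b : ℕ) : Cyc (orderOf x)) with hQ
    have h2 : ∀ ψ, ((if χ = ψ ∧ χ ∈ B then Q else 0) - NC 2 x b χ ψ) *
        ((if ψ = ρ ∧ ψ ∈ B then Q else 0) - NC 2 x b ψ ρ) =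
        (if χ = ψ ∧ χ ∈ B then Q else 0) * (if ψ = ρ ∧ ψ ∈ B then Q else 0) -
        (if χ = ψ ∧ χ ∈ B then Q else 0) * NC 2 x b ψ ρ -
        NC 2 x b χ ψ * (if ψ = ρ ∧ ψ ∈ B then Q else 0) +
        NC 2 x b χ ψ * NC 2 x b ψ ρ := by intro ψ; ring
    rw [Finset.sum_congr rfl fun ψ _ => h2 ψ, Finset.sum_add_distrib, Finset.sum_sub_distrib,
      Finset.sum_sub_distrib, h1]
    have h3 : ∑ ψ, (if χ = ψ ∧ χ ∈ B then Q else 0) * (if ψ = ρ ∧ ψ ∈ B then Q else 0) =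
        Q * (if χ = ρ ∧ χ ∈ B then Q else 0) := by
      rw [Finset.sum_eq_single χ]
      · by_cases hB : χ ∈ B
        · rw [if_pos ⟨rfl, hB⟩]
        · rw [if_neg (fun h => hB h.2), if_neg (fun h => hB h.2), zero_mul, mul_zero]
      · intro ψ _ hne
        rw [if_neg (fun h => hne h.1.symm), zero_mul]
      · intro h; exact absurd (Finset.mem_univ _) h
    have h4 : ∑ ψ, (if χ = ψ ∧ χ ∈ B then Q else 0) * NC 2 x b ψ ρ = Q * NC 2 x b χ ρ := by
      rw [Finset.sum_eq_single χ]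
      · by_cases hB : χ ∈ B
        · rw [if_pos ⟨rfl, hB⟩]
        · rw [NC_zero_left hM hx hind hB, mul_zero, mul_zero]
      · intro ψ _ hne
        rw [if_neg (fun h => hne h.1.symm), zero_mul]
      · intro h; exact absurd (Finset.mem_univ _) h
    have h5 : ∑ ψ, NC 2 x b χ ψ * (if ψ = ρ ∧ ψ ∈ B then Q else 0) = Q * NC 2 x b χ ρ := by
      rw [Finset.sum_eq_single ρ]
      · by_cases hB : ρ ∈ B
        · rw [if_pos ⟨rfl, hB⟩, mul_comm]
        · rw [NC_zero_right hM hx hind hB, mul_zero, zero_mul]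
      · intro ψ _ hne
        rw [if_neg (fun h => hne h.1), mul_zero]
      · intro h; exact absurd (Finset.mem_univ _) h
    rw [h3, h4, h5]
    ring

theorem CC_T (b : Set (IrrCharacter (Subgroup.centralizer ({x} : Set G))))
    {B : Set (IrrCharacter G)} {χ : IrrCharacter G} (hχ : χ ∈ B) :
    Herm.T (CC x b B) χ = (2 ^ blockDefect 2 b : ℕ) - Herm.T (NC 2 x b) χ := by
  unfold Herm.T CC
  rw [if_pos ⟨rfl, hχ⟩, sub_eq_add_neg, av_add]
  have h1 : av (-NC 2 x b χ χ) = - av (NC 2 x b χ χ) := by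
    have := av_int_mul (-1) (NC 2 x b χ χ)
    push_cast at this
    rw [neg_one_mul, neg_one_mul] at this
    exact this
  rw [h1, av_nat, Complex.add_re, Complex.neg_re, Complex.natCast_re]
  ring

theorem CC_T_zero (hM : IsPModular 2 M) (hx : ∃ k : ℕ, orderOf x = 2 ^ k)
    {b : Set (IrrCharacter (Subgroup.centralizer ({x} : Set G)))}
    {B : Set (IrrCharacter G)} (hind : IsInducedBlock M (Subgroup.centralizer ({x} : Set G)) b B)
    {χ : IrrCharacter G} (hχ : χ ∉ B) :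
    Herm.T (CC x b B) χ = 0 ∧ Herm.T (NC 2 x b) χ = 0 := by
  unfold Herm.T CC
  rw [if_neg (fun h => hχ h.2), NC_zero_left hM hx hind hχ, sub_zero]
  have : av (0 : Cyc (orderOf x)) = 0 := by
    have := av_nat (n := orderOf x) 0
    simpa using this
  rw [this]
  simp

theorem CC_trace (hM : IsPModular 2 M) (hx : ∃ k : ℕ, orderOf x = 2 ^ k)
    {b : Set (IrrCharacter (Subgroup.centralizer ({x} : Set G)))}
    {B : Set (IrrCharacter G)} (hind : IsInducedBlock M (Subgroup.centralizer ({x} : Set G)) b B) :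
    ∑ χ, Herm.T (CC x b B) χ =
      (2 ^ blockDefect 2 b : ℕ) * (Nat.card B : ℝ) - (2 ^ blockDefect 2 b : ℕ) * (blockRank 2 b : ℝ) := by
  classical
  have h1 := Herm.T_sum (NC_trace hM hx hind.1)
  have h2 : ∀ χ, Herm.T (CC x b B) χ =
      (if χ ∈ B then ((2 ^ blockDefect 2 b : ℕ) : ℝ) else 0) - Herm.T (NC 2 x b) χ := by
    intro χ
    by_cases hχ : χ ∈ B
    · rw [CC_T b hχ, if_pos hχ]
    · obtain ⟨h3, h4⟩ := CC_T_zero hM hx hind hχ
      rw [h3, h4, if_neg hχ, sub_zero]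
  rw [Finset.sum_congr rfl fun χ _ => h2 χ, Finset.sum_sub_distrib, h1, ← Finset.sum_filter,
    Finset.sum_const, nsmul_eq_mul]
  have h3 : Nat.card B = (Finset.univ.filter (fun χ : IrrCharacter G => χ ∈ B)).card := by
    rw [Nat.card_eq_fintype_card, Fintype.card_subtype]
  rw [← h3]
  push_cast
  ring

/-- the main inequality -/
theorem main (hM : IsPModular 2 M) (hx : ∃ k : ℕ, orderOf x = 2 ^ k)
    {b : Set (IrrCharacter (Subgroup.centralizer ({x} : Set G)))}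
    {B : Set (IrrCharacter G)} (hind : IsInducedBlock M (Subgroup.centralizer ({x} : Set G)) b B)
    (hmaj : blockDefect 2 b = blockDefect 2 B) (hl : Nat.card B ≤ blockRank 2 b + 3)
    (hd : 1 ≤ blockDefect 2 B)
    (s t : Finset (IrrCharacter G))
    (hs : ∀ χ ∈ s, χ ∈ B ∧ blockHeight 2 B (χ : G → ℂ) = 0)
    (ht : ∀ χ ∈ t, χ ∈ B ∧ 1 ≤ blockHeight 2 B (χ : G → ℂ)) :
    3 * s.card + 2 * ∑ χ ∈ t, 2 ^ blockHeight 2 B (χ : G → ℂ) ≤ 3 * 2 ^ blockDefect 2 B := by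
  classical
  haveI := hM.2.1
  have h := CC_herm hM hx hind
  have hN := NC_herm hM hx hind.1
  have hdisj : Disjoint s t := by
    rw [Finset.disjoint_left]
    intro χ h1 h2
    have := (hs χ h1).2
    have := (ht χ h2).2
    omega
  have hT : ∀ χ : IrrCharacter G, χ ∈ B → blockHeight 2 B (χ : G → ℂ) = 0 →
      ∃ c : ℕ, Herm.T (CC x b B) χ = c ∧ ¬ 2 ∣ c := by
    intro χ hχ hχ0
    have h1 := Tz_odd hM hx (NN_unit hM hx hind hχ hχ0 hχ hχ0)
    have h2 := h.T_nonneg (q_pos b) χ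
    rw [CC_T b hχ, Tz_eq hx] at h2 ⊢
    have h3 : 0 ≤ ((2 ^ blockDefect 2 b : ℕ) : ℤ) - Tz x b χ := by exact_mod_cast h2
    obtain ⟨c, hc⟩ := Int.eq_ofNat_of_zero_le h3
    refine ⟨c, ?_, ?_⟩
    · have : (((((2 ^ blockDefect 2 b : ℕ) : ℤ) - Tz x b χ : ℤ)) : ℝ) = ((c : ℤ) : ℝ) := by rw [hc]
      push_cast at this ⊢
      exact this
    · intro h4
      apply h1
      have h5 : (2 : ℤ) ∣ ((2 ^ blockDefect 2 b : ℕ) : ℤ) := by
        rw [hmaj]
        exact_mod_cast dvd_pow_self 2 (by omega)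
      have h6 : (2 : ℤ) ∣ ((2 ^ blockDefect 2 b : ℕ) : ℤ) - Tz x b χ := by
        rw [hc]; exact Int.natCast_dvd_natCast.2 h4
      have := dvd_sub h5 h6
      rwa [sub_sub_cancel] at this
  have hoff : ∀ χ ψ : IrrCharacter G, χ ≠ ψ → CC x b B χ ψ = - NC 2 x b χ ψ := by
    intro χ ψ hne
    unfold CC
    rw [if_neg (fun h => hne h.1), zero_sub]
  have hkey := abs_main h (q_pos b) ?_ s t hdisj (fun ψ => 2 ^ blockHeight 2 B (ψ : G → ℂ))
    (fun χ hχ => by rw [(hs χ hχ).2, pow_zero]) (fun χ hχ => hT χ (hs χ hχ).1 (hs χ hχ).2) ?_ ?_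
  · rw [← hmaj]; exact hkey
  · rw [CC_trace hM hx hind]
    have h1 : (Nat.card B : ℝ) ≤ blockRank 2 b + 3 := by exact_mod_cast hl
    have h2 : (0 : ℝ) ≤ ((2 ^ blockDefect 2 b : ℕ) : ℝ) := by positivity
    nlinarith
  · intro χ hχ ψ hψ
    have hψB : ψ ∈ B := by
      rcases Finset.mem_union.1 hψ with h | h
      · exact (hs ψ h).1
      · exact (ht ψ h).1
    refine ⟨?_, (pow_pos (by norm_num) _).ne', ?_⟩
    · by_cases he : χ = ψ
      · subst he
        intro h0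
        obtain ⟨c, hc, hc2⟩ := hT χ (hs χ hχ).1 (hs χ hχ).2
        have : Herm.T (CC x b B) χ = 0 := by
          unfold Herm.T
          rw [h0]
          have := av_nat (n := orderOf x) 0
          simp only [Nat.cast_zero] at this
          rw [this]; simp
        rw [this] at hc
        have : c = 0 := by exact_mod_cast hc.symm
        exact hc2 (by rw [this]; exact dvd_zero _)
      · rw [hoff χ ψ he]
        intro h0
        exact maj_ne hM hx hind hmaj (hs χ hχ).1 (hs χ hχ).2 hψB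
          (by rw [← NC_coe, neg_eq_zero.1 h0]; rfl)
    · by_cases he : χ = ψ
      · subst he
        rw [(hs χ hχ).2, pow_zero, Nat.cast_one, div_one]
        exact h.int χ χ
      · rw [hoff χ ψ he]
        push_cast
        rw [NC_coe, neg_div]
        refine IsIntegral.neg ?_
        have := maj_int hM hx hind.1 hind.2.1 hmaj χ hψB
        push_cast at this
        exact this
  · intro χ hχ
    obtain ⟨hχB, hχ1⟩ := ht χ hχ
    obtain ⟨r, hr, hTr⟩ := T_form hM hx hind hmaj hχB hχ1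
    have h1 := h.T_nonneg (q_pos b) χ
    rw [CC_T b hχB, hTr] at h1
    have h2 : 2 ^ (blockHeight 2 B (χ : G → ℂ) + 1) * r ≤ 2 ^ blockDefect 2 b := by
      have : (((2 ^ (blockHeight 2 B (χ : G → ℂ) + 1) * r : ℕ)) : ℝ) ≤
        ((2 ^ blockDefect 2 b : ℕ) : ℝ) := by linarith
      exact_mod_cast this
    have h3 : 2 ^ (blockHeight 2 B (χ : G → ℂ) + 1) ≤ 2 ^ blockDefect 2 b :=
      le_trans (Nat.le_mul_of_pos_right _ hr) h2
    have h4 : 2 ^ (blockHeight 2 B (χ : G → ℂ) + 1) ∣ 2 ^ blockDefect 2 b :=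
      pow_dvd_pow 2 ((Nat.pow_le_pow_iff_right (by norm_num)).1 h3)
    have h5 : 2 ^ (blockHeight 2 B (χ : G → ℂ) + 1) ∣
        2 ^ blockDefect 2 b - 2 ^ (blockHeight 2 B (χ : G → ℂ) + 1) * r :=
      Nat.dvd_sub h4 (dvd_mul_right _ _)
    -- positivity
    obtain ⟨χ₀, hχ₀, hh⟩ := H10.BlockHZ.exists_height_zero (p := 2) hind.2.1
    have hne : χ₀ ≠ χ := by rintro rfl; omega
    have h6 : CC x b B χ χ₀ ≠ 0 := by
      rw [hoff χ χ₀ hne.symm]
      intro h0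
      have h0' := neg_eq_zero.1 h0
      refine maj_ne hM hx hind hmaj hχ₀ hh hχB ?_
      rw [← NC_coe, hN.herm χ χ₀, h0']
      simp
    have h7 := h.count_le χ {χ₀} (fun j hj => by rw [Finset.mem_singleton.1 hj]; exact h6)
    rw [Finset.card_singleton, Nat.cast_one] at h7
    have h8 : 0 < Herm.T (CC x b B) χ := by
      by_contra hcon
      have h9 : Herm.T (CC x b B) χ = 0 := le_antisymm (not_lt.1 hcon) (h.T_nonneg (q_pos b) χ)
      rw [h9, mul_zero] at h7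
      linarith
    have h9 : Herm.T (CC x b B) χ =
        ((2 ^ blockDefect 2 b - 2 ^ (blockHeight 2 B (χ : G → ℂ) + 1) * r : ℕ) : ℝ) := by
      rw [CC_T b hχB, hTr, Nat.cast_sub h2]
    rw [h9] at h8 ⊢
    have h10 : 0 < 2 ^ blockDefect 2 b - 2 ^ (blockHeight 2 B (χ : G → ℂ) + 1) * r := by
      exact_mod_cast h8
    have h11 := Nat.le_of_dvd h10 h5
    have h12 : 2 * 2 ^ blockHeight 2 B (χ : G → ℂ) ≤
        2 ^ blockDefect 2 b - 2 ^ (blockHeight 2 B (χ : G → ℂ) + 1) * r := by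
      rw [pow_succ] at h11 ⊢
      omega
    exact_mod_cast h12

end

end Cfsg.Agent.H25.Sub9
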