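import Cfsg.Agent.H25_CenSec2

/-! Test vectors in the lattice of generalised projective characters. -/

open scoped ComplexConjugate

namespace Cfsg.Agent.H25.TV

open Cfsg Cfsg.Agent.H3 Cfsg.Agent.H3.CharBasic Cfsg.Agent.H3.CharIrr Cfsg.Agent.H3.CharComplete
  Cfsg.Agent.H25.Brauer Cfsg.Agent.H25.BrauerP Cfsg.Agent.H25.Elem
  Cfsg.Agent.H10.Char Cfsg.Agent.H10.BlockLoc Cfsg.Agent.H10.BlockAlg Cfsg.Agent.H10.BlockIdem
  Cfsg.Agent.H10.BlockOrth Cfsg.Agent.H10.BlockHZ Cfsg.Agent.H10.BlockInd Cfsg.Agent.H10.PPart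
  Cfsg.Agent.H10.BlockSMT Cfsg.Agent.H10.BlockSMT2 Cfsg.Agent.H10.BlockPrin Cfsg.Agent.H10.BlockDefect
  Cfsg.Agent.H25.BlockReg Cfsg.Agent.H25.BlockReg2 Cfsg.Agent.H25.BlockReg3 Cfsg.Agent.H25.IndCong
  Cfsg.Agent.H25.Sub Cfsg.Agent.H25.Sub2 Cfsg.Agent.H25.Avg Cfsg.Agent.H3.CharGal
  Cfsg.Agent.H25.Sub3 Cfsg.Agent.H25.Sub4 Cfsg.Agent.H25.Sub5 Cfsg.Agent.H25.Sub6 Cfsg.Agent.H25.Sub7
  Cfsg.Agent.H25.AbSec2

variable {p : ℕ} {M : Ideal AlgInt}

section lat
variable {C : Type*} [Group C] [Fintype C] [Fintype (IrrCharacter C)]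

/-- the class function with integer coordinates `w` -/
noncomputable def ev (w : IrrCharacter C → ℤ) (y : C) : ℂ := ∑ φ, (w φ : ℂ) * (φ : C → ℂ) y

theorem ev_add (w w' : IrrCharacter C → ℤ) (y : C) : ev (w + w') y = ev w y + ev w' y := by
  unfold ev
  rw [← Finset.sum_add_distrib]
  refine Finset.sum_congr rfl fun φ _ => ?_
  rw [Pi.add_apply]; push_cast; ring

theorem ev_smul (n : ℤ) (w : IrrCharacter C → ℤ) (y : C) : ev (n • w) y = n * ev w y := by
  unfold ev
  rw [Finset.mul_sum]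
  refine Finset.sum_congr rfl fun φ _ => ?_
  rw [Pi.smul_apply, smul_eq_mul]; push_cast; ring

/-- the lattice of generalised projective characters of a block -/
def LL (p : ℕ) (b : Set (IrrCharacter C)) : Submodule ℤ (IrrCharacter C → ℤ) where
  carrier := {w | (∀ φ, φ ∉ b → w φ = 0) ∧ ∀ y : C, p ∣ orderOf y → ev w y = 0}
  add_mem' := by
    rintro w w' ⟨h1, h2⟩ ⟨h3, h4⟩
    refine ⟨fun φ hφ => by rw [Pi.add_apply, h1 φ hφ, h3 φ hφ, add_zero], fun y hy => ?_⟩
    rw [ev_add, h2 y hy, h4 y hy, add_zero]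
  zero_mem' := ⟨fun _ _ => rfl, fun y _ => by unfold ev; simp⟩
  smul_mem' := by
    rintro n w ⟨h1, h2⟩
    refine ⟨fun φ hφ => by rw [Pi.smul_apply, h1 φ hφ, smul_zero], fun y hy => ?_⟩
    rw [ev_smul, h2 y hy, mul_zero]

theorem mem_LL {p : ℕ} {b : Set (IrrCharacter C)} {w : IrrCharacter C → ℤ} :
    w ∈ LL p b ↔ (∀ φ, φ ∉ b → w φ = 0) ∧ ∀ y : C, p ∣ orderOf y → ev w y = 0 := Iff.rfl

theorem LL_pure {p : ℕ} {b : Set (IrrCharacter C)} {w : IrrCharacter C → ℤ} {n : ℤ} (hn : n ≠ 0)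
    (h : n • w ∈ LL p b) : w ∈ LL p b := by
  obtain ⟨h1, h2⟩ := h
  refine ⟨fun φ hφ => ?_, fun y hy => ?_⟩
  · have := h1 φ hφ
    rw [Pi.smul_apply, smul_eq_mul] at this
    exact (mul_eq_zero.1 this).resolve_left hn
  · have := h2 y hy
    rw [ev_smul] at this
    exact (mul_eq_zero.1 this).resolve_left (by exact_mod_cast hn)

theorem ev_inner (w : IrrCharacter C → ℤ) (ψ : IrrCharacter C) :
    (Nat.card C : ℂ)⁻¹ * ∑ y : C, ev w y * conj ((ψ : C → ℂ) y) = w ψ := by
  have h1 : classInner (ev w) (ψ : C → ℂ) = w ψ := by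
    have h : ev w = ∑ φ : IrrCharacter C, (w φ : ℂ) • (φ : C → ℂ) := by
      funext c
      rw [Finset.sum_apply]; rfl
    rw [h, ci_sum_irr]
  exact h1

/-- rows of the normalised contribution matrix lie in the lattice -/
theorem kk_mem [hp : Fact p.Prime] (hM : IsPModular p M) {b : Set (IrrCharacter C)}
    (hb : IsPBlock M b) {φ : IrrCharacter C} (hφ : φ ∈ b) : (fun ψ => kk p b φ ψ) ∈ LL p b := by
  refine ⟨fun ψ hψ => kk_eq_zero hM hb hφ hψ, fun y hy => ?_⟩
  have h1 := kk_expand (p := p) hφ y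
  rw [finsum_eq_sum_of_fintype] at h1
  show ∑ ψ, (kk p b φ ψ : ℂ) * (ψ : C → ℂ) y = 0
  rw [← h1]
  unfold regFun
  rw [if_pos hy]

theorem kk_ev [hp : Fact p.Prime] {b : Set (IrrCharacter C)}
    {φ : IrrCharacter C} (hφ : φ ∈ b) (y : C) :
    ev (fun ψ => kk p b φ ψ) y = regFun p ((p ^ blockDefect p b : ℕ) : ℂ) (φ : C → ℂ) y := by
  have h1 := kk_expand (p := p) hφ y
  rw [finsum_eq_sum_of_fintype] at h1
  exact h1.symm

/-- pairing with a row -/
theorem kk_pair [hp : Fact p.Prime] {b : Set (IrrCharacter C)}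
    {φ : IrrCharacter C} (hφ : φ ∈ b) {w : IrrCharacter C → ℤ} (hw : w ∈ LL p b) :
    ∑ ψ, kk p b φ ψ * w ψ = (p ^ blockDefect p b : ℕ) * w φ := by
  classical
  have h1 : ((∑ ψ, kk p b φ ψ * w ψ : ℤ) : ℂ) = (((p ^ blockDefect p b : ℕ) * w φ : ℤ) : ℂ) := by
    push_cast
    have h2 : ∀ ψ : IrrCharacter C, (kk p b φ ψ : ℂ) * (w ψ : ℂ) =
        (Nat.card C : ℂ)⁻¹ * ∑ y : C, ev w y * conj ((kk p b φ ψ : ℂ) * (ψ : C → ℂ) y) := by
      intro ψ
      rw [← ev_inner w ψ, Finset.mul_sum, Finset.mul_sum, Finset.mul_sum]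
      refine Finset.sum_congr rfl fun y _ => ?_
      rw [map_mul, map_intCast]; ring
    rw [Finset.sum_congr rfl fun ψ _ => h2 ψ, ← Finset.mul_sum, Finset.sum_comm]
    have h3 : ∀ y : C, ∑ ψ : IrrCharacter C, ev w y * conj ((kk p b φ ψ : ℂ) * (ψ : C → ℂ) y) =
        (p ^ blockDefect p b : ℂ) * (ev w y * conj ((φ : C → ℂ) y)) := by
      intro y
      rw [← Finset.mul_sum, ← map_sum]
      have h4 := kk_ev (p := p) hφ y
      unfold ev at h4
      rw [h4]
      unfold regFun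
      split_ifs with hy
      · rw [hw.2 y hy, map_zero, mul_zero, zero_mul, mul_zero]
      · rw [map_mul, Complex.conj_natCast]; push_cast; ring
    rw [Finset.sum_congr rfl fun y _ => h3 y, ← Finset.mul_sum, mul_left_comm, ev_inner]
  exact_mod_cast h1

end lat

section
variable {G : Type*} [Group G] [Fintype G] [hp : Fact p.Prime] {x : G}
  [Fintype (Subgroup.centralizer ({x} : Set G))]
  [Fintype (IrrCharacter G)]
  [Fintype (IrrCharacter (Subgroup.centralizer ({x} : Set G)))]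

/-- the generalised decomposition number of `χ` along `w` -/
noncomputable def de (x : G) [Fintype (Subgroup.centralizer ({x} : Set G))]
    [Fintype (IrrCharacter (Subgroup.centralizer ({x} : Set G)))] (χ : IrrCharacter G)
    (w : IrrCharacter (Subgroup.centralizer ({x} : Set G)) → ℤ) : ℂ :=
  ∑ φ, (w φ : ℂ) * ((aa (Subgroup.centralizer ({x} : Set G)) χ φ : ℂ) * zl (zz x) φ)

omit [Fintype (IrrCharacter G)] hp in
theorem de_add (χ : IrrCharacter G) (w w' : IrrCharacter (Subgroup.centralizer ({x} : Set G)) → ℤ) :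
    de x χ (w + w') = de x χ w + de x χ w' := by
  unfold de
  rw [← Finset.sum_add_distrib]
  refine Finset.sum_congr rfl fun φ _ => ?_
  rw [Pi.add_apply]; push_cast; ring

omit [Fintype (IrrCharacter G)] hp in
theorem de_smul (χ : IrrCharacter G) (n : ℤ) (w : IrrCharacter (Subgroup.centralizer ({x} : Set G)) → ℤ) :
    de x χ (n • w) = n * de x χ w := by
  unfold de
  rw [Finset.mul_sum]
  refine Finset.sum_congr rfl fun φ _ => ?_
  rw [Pi.smul_apply, smul_eq_mul]; push_cast; ring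

theorem de_eq (χ : IrrCharacter G) {b : Set (IrrCharacter (Subgroup.centralizer ({x} : Set G)))}
    {w : IrrCharacter (Subgroup.centralizer ({x} : Set G)) → ℤ} (hw : w ∈ LL p b) :
    de x χ w = (Nat.card (Subgroup.centralizer ({x} : Set G)) : ℂ)⁻¹ *
      ∑ y : Subgroup.centralizer ({x} : Set G), (if p ∣ orderOf y then 0 else
        (χ : G → ℂ) (x * y) * conj (ev w y)) := by
  classical
  have h1 : ∀ y : Subgroup.centralizer ({x} : Set G), (if p ∣ orderOf y then 0 else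
        (χ : G → ℂ) (x * y) * conj (ev w y)) = (χ : G → ℂ) (x * y) * conj (ev w y) := by
    intro y
    split_ifs with hy
    · rw [hw.2 y hy, map_zero, mul_zero]
    · rfl
  rw [Finset.sum_congr rfl fun y _ => h1 y]
  have h2 : ∀ y : Subgroup.centralizer ({x} : Set G), (χ : G → ℂ) (x * y) =
      ∑ φ : IrrCharacter (Subgroup.centralizer ({x} : Set G)),
        ((aa (Subgroup.centralizer ({x} : Set G)) χ φ : ℂ) * zl (zz x) φ) *
          (φ : Subgroup.centralizer ({x} : Set G) → ℂ) y := by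
    intro y
    rw [sec_expand (zz x) rfl χ y]
    refine Finset.sum_congr rfl fun φ _ => ?_
    rw [aa_spec]
  have h3 : ∀ y : Subgroup.centralizer ({x} : Set G), (χ : G → ℂ) (x * y) * conj (ev w y) =
      ∑ φ : IrrCharacter (Subgroup.centralizer ({x} : Set G)),
        ((aa (Subgroup.centralizer ({x} : Set G)) χ φ : ℂ) * zl (zz x) φ) *
          conj (ev w y * conj ((φ : Subgroup.centralizer ({x} : Set G) → ℂ) y)) := by
    intro y
    rw [h2 y, Finset.sum_mul]
    refine Finset.sum_congr rfl fun φ _ => ?_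
    rw [map_mul, Complex.conj_conj]; ring
  rw [Finset.sum_congr rfl fun y _ => h3 y, Finset.sum_comm, Finset.mul_sum]
  unfold de
  refine Finset.sum_congr rfl fun φ _ => ?_
  rw [← Finset.mul_sum, ← map_sum]
  have h5 : ∀ n A B : ℂ, n * (A * B) = A * (n * B) := fun n A B => by ring
  rw [h5 (Nat.card (Subgroup.centralizer ({x} : Set G)) : ℂ)⁻¹]
  have h4 : (Nat.card (Subgroup.centralizer ({x} : Set G)) : ℂ)⁻¹ *
      conj (∑ y : Subgroup.centralizer ({x} : Set G), ev w y *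
        conj ((φ : Subgroup.centralizer ({x} : Set G) → ℂ) y)) = (w φ : ℂ) := by
    have := congrArg conj (ev_inner w φ)
    rw [map_mul, map_inv₀, Complex.conj_natCast, map_intCast] at this
    exact this
  rw [h4]; ring

/-- orthogonality -/
theorem de_orth (hx : ∃ k : ℕ, orderOf x = p ^ k)
    {b : Set (IrrCharacter (Subgroup.centralizer ({x} : Set G)))}
    {w w' : IrrCharacter (Subgroup.centralizer ({x} : Set G)) → ℤ} (hw : w ∈ LL p b)
    (hw' : w' ∈ LL p b) :
    ∑ χ : IrrCharacter G, de x χ w * conj (de x χ w') = ((∑ φ, w φ * w' φ : ℤ) : ℂ) := by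
  classical
  set n : ℂ := (Nat.card (Subgroup.centralizer ({x} : Set G)) : ℂ)⁻¹ with hn
  have hnc : conj n = n := by rw [hn, map_inv₀, Complex.conj_natCast]
  have h1 : ∀ χ : IrrCharacter G, de x χ w * conj (de x χ w') =
      ∑ y : Subgroup.centralizer ({x} : Set G), ∑ y' : Subgroup.centralizer ({x} : Set G),
        (if p ∣ orderOf y then 0 else if p ∣ orderOf y' then 0 else
        (n * n * (conj (ev w y) * ev w' y')) * ((χ : G → ℂ) (x * y) * conj ((χ : G → ℂ) (x * y')))) := by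
    intro χ
    rw [de_eq χ hw, de_eq χ hw', map_mul, ← hn, hnc, map_sum, mul_mul_mul_comm, Finset.sum_mul_sum,
      Finset.mul_sum]
    refine Finset.sum_congr rfl fun y _ => ?_
    rw [Finset.mul_sum]
    refine Finset.sum_congr rfl fun y' _ => ?_
    split_ifs
    · ring
    · ring
    · simp
    · rw [map_mul, Complex.conj_conj]; ring
  rw [Finset.sum_congr rfl fun χ _ => h1 χ, Finset.sum_comm]
  have h2 : ∀ y : Subgroup.centralizer ({x} : Set G), ∑ χ : IrrCharacter G,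
      ∑ y' : Subgroup.centralizer ({x} : Set G),
        (if p ∣ orderOf y then 0 else if p ∣ orderOf y' then 0 else
        (n * n * (conj (ev w y) * ev w' y')) * ((χ : G → ℂ) (x * y) * conj ((χ : G → ℂ) (x * y')))) =
      ∑ y' : Subgroup.centralizer ({x} : Set G), ∑ ψ : IrrCharacter (Subgroup.centralizer ({x} : Set G)),
        (n * (conj (ev w y * conj ((ψ : Subgroup.centralizer ({x} : Set G) → ℂ) y)))) *
        (n * (ev w' y' * conj ((ψ : Subgroup.centralizer ({x} : Set G) → ℂ) y'))) := by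
    intro y
    rw [Finset.sum_comm]
    refine Finset.sum_congr rfl fun y' _ => ?_
    by_cases hy : p ∣ orderOf y
    · simp only [if_pos hy, Finset.sum_const_zero]
      symm
      refine Finset.sum_eq_zero fun ψ _ => ?_
      rw [hw.2 y hy]; simp
    · by_cases hy' : p ∣ orderOf y'
      · simp only [if_neg hy, if_pos hy', Finset.sum_const_zero]
        symm
        refine Finset.sum_eq_zero fun ψ _ => ?_
        rw [hw'.2 y' hy']; simp
      · simp only [if_neg hy, if_neg hy']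
        rw [← Finset.mul_sum, orth2_sec hx y y' hy hy', Finset.mul_sum]
        refine Finset.sum_congr rfl fun ψ _ => ?_
        rw [map_mul, Complex.conj_conj]; ring
  rw [Finset.sum_congr rfl fun y _ => h2 y]
  have h3 : ∀ y : Subgroup.centralizer ({x} : Set G), ∑ y' : Subgroup.centralizer ({x} : Set G),
      ∑ ψ : IrrCharacter (Subgroup.centralizer ({x} : Set G)),
        (n * (conj (ev w y * conj ((ψ : Subgroup.centralizer ({x} : Set G) → ℂ) y)))) *
        (n * (ev w' y' * conj ((ψ : Subgroup.centralizer ({x} : Set G) → ℂ) y'))) =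
      ∑ ψ : IrrCharacter (Subgroup.centralizer ({x} : Set G)),
        (n * (conj (ev w y * conj ((ψ : Subgroup.centralizer ({x} : Set G) → ℂ) y)))) * (w' ψ : ℂ) := by
    intro y
    rw [Finset.sum_comm]
    refine Finset.sum_congr rfl fun ψ _ => ?_
    rw [← Finset.mul_sum, ← Finset.mul_sum, ev_inner]
  rw [Finset.sum_congr rfl fun y _ => h3 y, Finset.sum_comm]
  push_cast
  refine Finset.sum_congr rfl fun ψ _ => ?_
  rw [← Finset.sum_mul, ← Finset.mul_sum, ← map_sum]
  congr 1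
  have := congrArg conj (ev_inner w ψ)
  rw [map_mul, map_intCast, ← hn, hnc] at this
  exact this

omit [Fintype (IrrCharacter G)] hp in
theorem de_mem (χ : IrrCharacter G)
    (w : IrrCharacter (Subgroup.centralizer ({x} : Set G)) → ℤ) : de x χ w ∈ Cyc (orderOf x) := by
  unfold de
  exact sum_mem fun φ _ => mul_mem (intCast_mem _ _) (mul_mem (natCast_mem _ _) (root_mem (zl_ord φ)))

omit [Fintype (IrrCharacter G)] hp in
theorem zl_int (φ : IrrCharacter (Subgroup.centralizer ({x} : Set G))) : IsIntegral ℤ (zl (zz x) φ) :=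
  (IsIntegral.pow_iff (n := orderOf x) (orderOf_pos x)).1 (by rw [zl_ord]; exact isIntegral_one)

omit [Fintype (IrrCharacter G)] hp in
theorem de_int (χ : IrrCharacter G)
    (w : IrrCharacter (Subgroup.centralizer ({x} : Set G)) → ℤ) : IsIntegral ℤ (de x χ w) := by
  unfold de
  refine IsIntegral.sum _ fun φ _ => ?_
  refine IsIntegral.mul (isIntegral_algebraMap (R := ℤ) (A := ℂ) (x := w φ)) (IsIntegral.mul ?_ (zl_int φ))
  have := isIntegral_algebraMap (R := ℤ) (A := ℂ) (x := ((aa (Subgroup.centralizer ({x} : Set G)) χ φ : ℕ) : ℤ))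
  simpa using this

/-- the decomposition number in the cyclotomic field -/
noncomputable def dC (x : G) [Fintype (Subgroup.centralizer ({x} : Set G))]
    [Fintype (IrrCharacter (Subgroup.centralizer ({x} : Set G)))] (χ : IrrCharacter G)
    (w : IrrCharacter (Subgroup.centralizer ({x} : Set G)) → ℤ) : Cyc (orderOf x) :=
  ⟨de x χ w, de_mem χ w⟩

/-- complex conjugate of the decomposition number -/
theorem deconj_mem (χ : IrrCharacter G)
    (w : IrrCharacter (Subgroup.centralizer ({x} : Set G)) → ℤ) : conj (de x χ w) ∈ Cyc (orderOf x) := by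
  unfold de
  rw [map_sum]
  refine sum_mem fun φ _ => ?_
  rw [map_mul, map_mul, map_intCast, Complex.conj_natCast]
  refine mul_mem (intCast_mem _ _) (mul_mem (natCast_mem _ _) (root_mem ?_))
  rw [← map_pow, zl_ord, map_one]

theorem row_norm (hx : ∃ k : ℕ, orderOf x = p ^ k)
    {b : Set (IrrCharacter (Subgroup.centralizer ({x} : Set G)))}
    {w : IrrCharacter (Subgroup.centralizer ({x} : Set G)) → ℤ} (hw : w ∈ LL p b)
    (σ : Gm (orderOf x)) :
    ∑ χ : IrrCharacter G, ‖(σ (dC x χ w) : ℂ)‖ ^ 2 = ((∑ φ, w φ ^ 2 : ℤ) : ℝ) := by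
  have h1 : ∑ χ : IrrCharacter G, dC x χ w * ⟨conj (de x χ w), deconj_mem χ w⟩ =
      ((∑ φ, w φ ^ 2 : ℤ) : Cyc (orderOf x)) := by
    apply Subtype.ext
    rw [AddSubmonoidClass.coe_finset_sum]
    refine Eq.trans (de_orth hx hw hw) ?_
    push_cast
    refine Finset.sum_congr rfl fun φ _ => ?_
    ring
  have h2 := congrArg (fun z : Cyc (orderOf x) => ((σ z : Cyc (orderOf x)) : ℂ)) h1
  simp only [map_sum, map_mul, map_intCast] at h2
  rw [AddSubmonoidClass.coe_finset_sum] at h2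
  have h3 : ∀ χ : IrrCharacter G, ((σ (dC x χ w) * σ ⟨conj (de x χ w), deconj_mem χ w⟩ : Cyc (orderOf x)) : ℂ) =
      ((‖(σ (dC x χ w) : ℂ)‖ ^ 2 : ℝ) : ℂ) := by
    intro χ
    have := conj_gal σ (dC x χ w) ⟨conj (de x χ w), deconj_mem χ w⟩ rfl
    rw [MulMemClass.coe_mul, this, Complex.mul_conj, Complex.normSq_eq_norm_sq]
  rw [Finset.sum_congr rfl fun χ _ => h3 χ, ← Complex.ofReal_sum] at h2
  have h4 : (((∑ φ, w φ ^ 2 : ℤ) : Cyc (orderOf x)) : ℂ) = ((((∑ φ, w φ ^ 2 : ℤ) : ℝ)) : ℂ) := by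
    push_cast; rfl
  rw [h4] at h2
  exact Complex.ofReal_injective h2

/-- weighted count along one vector -/
theorem wt (hx : ∃ k : ℕ, orderOf x = p ^ k)
    {b : Set (IrrCharacter (Subgroup.centralizer ({x} : Set G)))}
    {w : IrrCharacter (Subgroup.centralizer ({x} : Set G)) → ℤ} (hw : w ∈ LL p b)
    (S : Finset (IrrCharacter G)) (m : IrrCharacter G → ℕ)
    (h : ∀ χ ∈ S, de x χ w ≠ 0 ∧ m χ ≠ 0 ∧ IsIntegral ℤ (de x χ w / (m χ : ℂ))) :
    ((∑ χ ∈ S, (m χ) ^ 2 : ℕ) : ℤ) ≤ ∑ φ, w φ ^ 2 := by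
  have hc : (0 : ℝ) < Fintype.card (Gm (orderOf x)) := by exact_mod_cast Fintype.card_pos
  have h1 : ∀ χ ∈ S, (m χ : ℝ) ^ 2 * (Fintype.card (Gm (orderOf x)) : ℝ) ≤
      ∑ σ : Gm (orderOf x), ‖(σ (dC x χ w) : ℂ)‖ ^ 2 := by
    intro χ hχ
    obtain ⟨h2, h3, h4⟩ := h χ hχ
    have hwc : (m χ : Cyc (orderOf x)) ≠ 0 := by exact_mod_cast h3
    have hd : dC x χ w ≠ 0 := fun h0 => h2 (congrArg Subtype.val h0)
    have h5 := norm_avg (n := orderOf x) (x := dC x χ w / (m χ : Cyc (orderOf x))) (div_ne_zero hd hwc)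
      (by push_cast; exact h4)
    have h6 : ∀ σ : Gm (orderOf x), ‖(σ (dC x χ w / (m χ : Cyc (orderOf x))) : ℂ)‖ ^ 2 =
        ((m χ : ℝ) ^ 2)⁻¹ * ‖(σ (dC x χ w) : ℂ)‖ ^ 2 := by
      intro σ
      rw [map_div₀, map_natCast]
      push_cast
      rw [norm_div, Complex.norm_natCast, div_pow]
      ring
    rw [Finset.sum_congr rfl fun σ _ => h6 σ, ← Finset.mul_sum] at h5
    have hwr : (0 : ℝ) < (m χ : ℝ) ^ 2 := by positivity
    rw [inv_mul_eq_div, le_div_iff₀ hwr] at h5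
    linarith
  have h2 : (∑ χ ∈ S, (m χ : ℝ) ^ 2) * (Fintype.card (Gm (orderOf x)) : ℝ) ≤
      ((∑ φ, w φ ^ 2 : ℤ) : ℝ) * (Fintype.card (Gm (orderOf x)) : ℝ) := by
    rw [Finset.sum_mul]
    refine (Finset.sum_le_sum h1).trans ?_
    refine (Finset.sum_le_sum_of_subset_of_nonneg (Finset.subset_univ _)
      (fun j _ _ => Finset.sum_nonneg fun σ _ => by positivity)).trans ?_
    rw [Finset.sum_comm, Finset.sum_congr rfl fun σ _ => row_norm hx hw σ, Finset.sum_const,
      Finset.card_univ, nsmul_eq_mul, mul_comm]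
  have h3 := le_of_mul_le_mul_right h2 hc
  have h4 : (((∑ χ ∈ S, (m χ) ^ 2 : ℕ) : ℤ) : ℝ) ≤ ((∑ φ, w φ ^ 2 : ℤ) : ℝ) := by
    push_cast at h3 ⊢; exact h3
  exact_mod_cast h4

open Classical in
/-- the test vector inequality -/
theorem tv (hx : ∃ k : ℕ, orderOf x = p ^ k)
    {b : Set (IrrCharacter (Subgroup.centralizer ({x} : Set G)))} {ι : Type*} (I : Finset ι)
    (w : ι → IrrCharacter (Subgroup.centralizer ({x} : Set G)) → ℤ) (hw : ∀ i ∈ I, w i ∈ LL p b)
    (S : Finset (IrrCharacter G)) (μ : ℕ)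
    (hμ : ∀ χ ∈ S, μ ≤ (I.filter (fun i => de x χ (w i) ≠ 0)).card) :
    ((μ * S.card : ℕ) : ℤ) ≤ ∑ i ∈ I, ∑ φ, w i φ ^ 2 := by
  have h1 : ∀ i ∈ I, (((S.filter (fun χ => de x χ (w i) ≠ 0)).card : ℕ) : ℤ) ≤ ∑ φ, w i φ ^ 2 := by
    intro i hi
    have := wt hx (hw i hi) (S.filter (fun χ => de x χ (w i) ≠ 0)) (fun _ => 1) (fun χ hχ =>
      ⟨(Finset.mem_filter.1 hχ).2, one_ne_zero, by rw [Nat.cast_one, div_one]; exact de_int χ _⟩)
    simpa using this
  refine le_trans ?_ (Finset.sum_le_sum h1)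
  have h2 : μ * S.card ≤ ∑ i ∈ I, (S.filter (fun χ => de x χ (w i) ≠ 0)).card := by
    calc μ * S.card = ∑ χ ∈ S, μ := by rw [Finset.sum_const, smul_eq_mul, mul_comm]
      _ ≤ ∑ χ ∈ S, (I.filter (fun i => de x χ (w i) ≠ 0)).card := Finset.sum_le_sum hμ
      _ = ∑ i ∈ I, (S.filter (fun χ => de x χ (w i) ≠ 0)).card := by
        simp only [Finset.card_filter]
        exact Finset.sum_comm
  exact_mod_cast h2

/-- contributions through the rows -/
theorem NN_de {b : Set (IrrCharacter (Subgroup.centralizer ({x} : Set G)))} (hM : IsPModular p M)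
    (hb : IsPBlock M b) (χ ψ : IrrCharacter G) [DecidablePred (· ∈ b)] :
    NN p x b χ ψ = ∑ φ : IrrCharacter (Subgroup.centralizer ({x} : Set G)), if φ ∈ b then
      ((aa (Subgroup.centralizer ({x} : Set G)) χ φ : ℂ) * zl (zz x) φ) *
        conj (de x ψ (fun φ' => kk p b φ φ')) else 0 := by
  classical
  rw [NN_eq]
  refine Finset.sum_congr rfl fun φ _ => ?_
  by_cases hφ : φ ∈ b
  · rw [if_pos hφ]
    unfold de
    rw [map_sum, Finset.mul_sum]
    refine Finset.sum_congr rfl fun φ' _ => ?_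
    by_cases hφ' : φ' ∈ b
    · rw [if_pos ⟨hφ, hφ'⟩, map_mul, map_mul, map_intCast, Complex.conj_natCast]
      push_cast; ring
    · have h3 : ¬ (φ ∈ b ∧ φ' ∈ b) := fun h => hφ' h.2
      rw [if_neg h3]
      simp [kk_eq_zero hM hb hφ hφ']
  · rw [if_neg hφ]
    refine Finset.sum_eq_zero fun φ' _ => ?_
    have h3 : ¬ (φ ∈ b ∧ φ' ∈ b) := fun h => hφ h.1
    rw [if_neg h3]

/-- a member of a block has a nonzero decomposition number at a major subsection -/
theorem exists_de_ne (hM : IsPModular p M) (hx : ∃ k : ℕ, orderOf x = p ^ k)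
    {b : Set (IrrCharacter (Subgroup.centralizer ({x} : Set G)))}
    {B : Set (IrrCharacter G)} (hind : IsInducedBlock M (Subgroup.centralizer ({x} : Set G)) b B)
    (hmaj : blockDefect p b = blockDefect p B) {χ : IrrCharacter G} (hχ : χ ∈ B) :
    ∃ w ∈ LL p b, de x χ w ≠ 0 := by
  classical
  by_contra hcon
  push Not at hcon
  apply maj_diag_ne hM hx hind hmaj hχ
  rw [NN_de hM hind.1]
  refine Finset.sum_eq_zero fun φ _ => ?_
  split_ifs with hφ
  · rw [hcon _ (kk_mem hM hind.1 hφ), map_zero, mul_zero]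
  · rfl

end

end Cfsg.Agent.H25.TV
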