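import Cfsg.Agent.H25_TV

/-! Bases of the lattice of generalised projective characters. -/

open scoped ComplexConjugate

namespace Cfsg.Agent.H25.TV2

open Cfsg Cfsg.Agent.H3 Cfsg.Agent.H3.CharBasic Cfsg.Agent.H3.CharIrr Cfsg.Agent.H3.CharComplete
  Cfsg.Agent.H25.Brauer Cfsg.Agent.H25.BrauerP Cfsg.Agent.H25.Elem
  Cfsg.Agent.H10.Char Cfsg.Agent.H10.BlockLoc Cfsg.Agent.H10.BlockAlg Cfsg.Agent.H10.BlockIdem
  Cfsg.Agent.H10.BlockOrth Cfsg.Agent.H10.BlockHZ Cfsg.Agent.H10.BlockInd Cfsg.Agent.H10.PPart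
  Cfsg.Agent.H10.BlockSMT Cfsg.Agent.H10.BlockSMT2 Cfsg.Agent.H10.BlockPrin Cfsg.Agent.H10.BlockDefect
  Cfsg.Agent.H25.BlockReg Cfsg.Agent.H25.BlockReg2 Cfsg.Agent.H25.BlockReg3 Cfsg.Agent.H25.IndCong
  Cfsg.Agent.H25.Sub Cfsg.Agent.H25.Sub2 Cfsg.Agent.H25.Avg Cfsg.Agent.H3.CharGal
  Cfsg.Agent.H25.TV

variable {p : ℕ} {M : Ideal AlgInt}

section lat
variable {C : Type*} [Group C] [Fintype C] [Fintype (IrrCharacter C)]

/-- the lattice has a basis with integral dual functionals -/
theorem exists_basis (p : ℕ) (b : Set (IrrCharacter C)) :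
    ∃ (n : ℕ) (β u : Fin n → IrrCharacter C → ℤ), (∀ i, β i ∈ LL p b) ∧
      (∀ i j, ∑ φ, u i φ * β j φ = if i = j then 1 else 0) ∧
      ∀ w ∈ LL p b, w = ∑ i, (∑ φ, u i φ * w φ) • β i := by
  classical
  set N := LL p b with hN
  haveI : Module.IsTorsionFree ℤ ((IrrCharacter C → ℤ) ⧸ N) := by
    rw [Module.isTorsionFree_iff_smul_eq_zero]
    intro n v hv
    obtain ⟨w, rfl⟩ := Submodule.mkQ_surjective N v
    by_cases hn : n = 0
    · exact Or.inl hn
    · right
      rw [← map_smul] at hv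
      exact (Submodule.Quotient.mk_eq_zero N).2 (LL_pure hn ((Submodule.Quotient.mk_eq_zero N).1 hv))
  haveI : Module.Free ℤ ((IrrCharacter C → ℤ) ⧸ N) := inferInstance
  obtain ⟨s, hs⟩ := Module.projective_lifting_property N.mkQ (LinearMap.id) (Submodule.mkQ_surjective N)
  have hr : ∀ v : IrrCharacter C → ℤ, v - s (N.mkQ v) ∈ N := by
    intro v
    rw [← Submodule.Quotient.mk_eq_zero, Submodule.Quotient.mk_sub, sub_eq_zero]
    have := LinearMap.congr_fun hs (N.mkQ v)
    exact this.symm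
  let r : (IrrCharacter C → ℤ) →ₗ[ℤ] N := 
    LinearMap.codRestrict N (LinearMap.id - s.comp N.mkQ) hr
  have hrN : ∀ w : N, r (w : IrrCharacter C → ℤ) = w := by
    intro w
    apply Subtype.ext
    show (w : IrrCharacter C → ℤ) - s (N.mkQ w) = w
    have : N.mkQ (w : IrrCharacter C → ℤ) = 0 := (Submodule.Quotient.mk_eq_zero N).2 w.2
    rw [this, map_zero, sub_zero]
  let B := Module.finBasis ℤ N
  refine ⟨Module.finrank ℤ N, fun i => (B i : IrrCharacter C → ℤ), fun i φ => B.repr (r (Pi.single φ 1)) i,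
    fun i => (B i).2, ?_, ?_⟩
  · intro i j
    have h1 : ∑ φ, B.repr (r (Pi.single φ 1)) i * (B j : IrrCharacter C → ℤ) φ =
        B.repr (r (∑ φ, (B j : IrrCharacter C → ℤ) φ • Pi.single φ (1:ℤ))) i := by
      rw [map_sum, map_sum, Finsupp.finsetSum_apply]
      refine Finset.sum_congr rfl fun φ _ => ?_
      rw [map_smul, map_smul, Finsupp.smul_apply, smul_eq_mul, mul_comm]
    have h2 : ∑ φ, (B j : IrrCharacter C → ℤ) φ • Pi.single φ (1:ℤ) = (B j : IrrCharacter C → ℤ) := by
      funext ψ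
      rw [Finset.sum_apply]
      simp [Pi.single_apply]
    rw [h1, h2, hrN, B.repr_self, Finsupp.single_apply]
    simp only [eq_comm]
  · intro w hw
    have h1 : ∀ i, ∑ φ, B.repr (r (Pi.single φ 1)) i * w φ = B.repr ⟨w, hw⟩ i := by
      intro i
      have h1 : ∑ φ, B.repr (r (Pi.single φ 1)) i * w φ =
          B.repr (r (∑ φ, w φ • Pi.single φ (1:ℤ))) i := by
        rw [map_sum, map_sum, Finsupp.finsetSum_apply]
        refine Finset.sum_congr rfl fun φ _ => ?_
        rw [map_smul, map_smul, Finsupp.smul_apply, smul_eq_mul, mul_comm]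
      have h2 : ∑ φ, w φ • Pi.single φ (1:ℤ) = w := by
        funext ψ
        rw [Finset.sum_apply]
        simp [Pi.single_apply]
      rw [h1, h2]
      exact congrArg (fun z => B.repr z i) (hrN ⟨w, hw⟩)
    have h2 := congrArg Subtype.val (B.sum_repr ⟨w, hw⟩)
    rw [AddSubmonoidClass.coe_finset_sum] at h2
    refine h2.symm.trans ?_
    refine Finset.sum_congr rfl fun i _ => ?_
    rw [h1 i]
    rfl

theorem rank_eq_basis [hp : Fact p.Prime] (hM : IsPModular p M) {b : Set (IrrCharacter C)}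
    (hb : IsPBlock M b) {n : ℕ} {β u : Fin n → IrrCharacter C → ℤ} (h1 : ∀ i, β i ∈ LL p b)
    (h2 : ∀ i j, ∑ φ, u i φ * β j φ = if i = j then 1 else 0)
    (h3 : ∀ w ∈ LL p b, w = ∑ i, (∑ φ, u i φ * w φ) • β i) : blockRank p b = n := by
  classical
  have hli : LinearIndependent ℂ (fun i => (ev (β i) : C → ℂ)) := by
    rw [Fintype.linearIndependent_iff]
    intro c hc i
    have h4 : ∀ φ : IrrCharacter C, ∑ j, c j * (β j φ : ℂ) = 0 := by
      intro φ
      have h5 : ∑ j, c j * (β j φ : ℂ) = (Nat.card C : ℂ)⁻¹ * ∑ y : C,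
          (∑ j, c j • (ev (β j) : C → ℂ)) y * conj ((φ : C → ℂ) y) := by
        have h6 : ∀ y : C, (∑ j, c j • (ev (β j) : C → ℂ)) y * conj ((φ : C → ℂ) y) =
            ∑ j, c j * (ev (β j) y * conj ((φ : C → ℂ) y)) := by
          intro y
          rw [Finset.sum_apply, Finset.sum_mul]
          refine Finset.sum_congr rfl fun j _ => ?_
          rw [Pi.smul_apply, smul_eq_mul, mul_assoc]
        rw [Finset.sum_congr rfl fun y _ => h6 y, Finset.sum_comm, Finset.mul_sum]
        refine Finset.sum_congr rfl fun j _ => ?_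
        rw [← Finset.mul_sum, mul_left_comm, ev_inner]
      rw [h5, hc]
      simp
    have h5 : ∑ φ, (u i φ : ℂ) * ∑ j, c j * (β j φ : ℂ) = c i := by
      have h6 : ∀ φ, (u i φ : ℂ) * ∑ j, c j * (β j φ : ℂ) = ∑ j, c j * ((u i φ * β j φ : ℤ) : ℂ) := by
        intro φ
        rw [Finset.mul_sum]
        refine Finset.sum_congr rfl fun j _ => ?_
        push_cast; ring
      rw [Finset.sum_congr rfl fun φ _ => h6 φ, Finset.sum_comm]
      have h7 : ∀ j, ∑ φ, c j * ((u i φ * β j φ : ℤ) : ℂ) = if i = j then c j else 0 := by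
        intro j
        rw [← Finset.mul_sum, ← Int.cast_sum, h2 i j]
        split_ifs <;> simp
      rw [Finset.sum_congr rfl fun j _ => h7 j, Finset.sum_ite_eq, if_pos (Finset.mem_univ _)]
    rw [← h5]
    exact Finset.sum_eq_zero fun φ _ => by rw [h4 φ, mul_zero]
  have hspan : Submodule.span ℂ ((fun χ : IrrCharacter C => pRegularPart p (χ : C → ℂ)) '' b) =
      Submodule.span ℂ (Set.range fun i => (ev (β i) : C → ℂ)) := by
    apply le_antisymm
    · rw [Submodule.span_le]
      rintro f ⟨φ, hφ, rfl⟩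
      have h4 := h3 _ (kk_mem (p := p) hM hb hφ)
      have h5 : (pRegularPart p (φ : C → ℂ)) = ((p ^ blockDefect p b : ℕ) : ℂ)⁻¹ •
          ∑ i, ((∑ ψ, u i ψ * kk p b φ ψ : ℤ) : ℂ) • (ev (β i) : C → ℂ) := by
        have hne : ((p ^ blockDefect p b : ℕ) : ℂ) ≠ 0 := by
          exact_mod_cast pow_ne_zero _ hp.out.ne_zero
        funext y
        have h6 : ev (fun ψ => kk p b φ ψ) y = ∑ i, ((∑ ψ, u i ψ * kk p b φ ψ : ℤ) : ℂ) * ev (β i) y := by
          conv_lhs => rw [h4]
          unfold ev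
          have h7 : ∀ ψ : IrrCharacter C, (((∑ i, (∑ ρ, u i ρ * kk p b φ ρ) • β i) ψ : ℤ) : ℂ) *
              (ψ : C → ℂ) y = ∑ i, ((∑ ρ, u i ρ * kk p b φ ρ : ℤ) : ℂ) * ((β i ψ : ℂ) * (ψ : C → ℂ) y) := by
            intro ψ
            rw [Finset.sum_apply, Int.cast_sum, Finset.sum_mul]
            refine Finset.sum_congr rfl fun i _ => ?_
            rw [Pi.smul_apply, smul_eq_mul, Int.cast_mul, mul_assoc]
          rw [Finset.sum_congr rfl fun ψ _ => h7 ψ, Finset.sum_comm]
          refine Finset.sum_congr rfl fun i _ => ?_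
          rw [Finset.mul_sum]
        rw [kk_ev hφ y] at h6
        rw [Pi.smul_apply, Finset.sum_apply, smul_eq_mul]
        simp only [Pi.smul_apply, smul_eq_mul]
        rw [← h6, H25.BlockReg3.pReg_apply]
        unfold regFun
        split_ifs
        · rw [mul_zero]
        · rw [← mul_assoc, inv_mul_cancel₀ hne, one_mul]
      show pRegularPart p (φ : C → ℂ) ∈ _
      rw [h5]
      exact Submodule.smul_mem _ _ (Submodule.sum_mem _ fun i _ =>
        Submodule.smul_mem _ _ (Submodule.subset_span ⟨i, rfl⟩))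
    · rw [Submodule.span_le]
      rintro f ⟨i, rfl⟩
      have h5 : (ev (β i) : C → ℂ) = ∑ φ : IrrCharacter C, if φ ∈ b then
          ((β i φ : ℂ) • pRegularPart p (φ : C → ℂ)) else 0 := by
        funext y
        rw [Finset.sum_apply]
        by_cases hy : p ∣ orderOf y
        · rw [(h1 i).2 y hy]
          symm
          refine Finset.sum_eq_zero fun φ _ => ?_
          split_ifs
          · rw [Pi.smul_apply, H25.BlockReg3.pReg_apply, if_pos hy, smul_zero]
          · rfl
        · unfold ev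
          refine Finset.sum_congr rfl fun φ _ => ?_
          split_ifs with hφ
          · rw [Pi.smul_apply, H25.BlockReg3.pReg_apply, if_neg hy, smul_eq_mul]
          · rw [(h1 i).1 φ hφ]; simp
      show (ev (β i) : C → ℂ) ∈ _
      rw [h5]
      refine Submodule.sum_mem _ fun φ _ => ?_
      split_ifs with hφ
      · exact Submodule.smul_mem _ _ (Submodule.subset_span ⟨φ, hφ, rfl⟩)
      · exact Submodule.zero_mem _
  unfold blockRank
  rw [hspan, finrank_span_eq_card hli, Fintype.card_fin]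

end lat

end Cfsg.Agent.H25.TV2
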