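import Cfsg.Agent.H25_TV2

/-! Blocks of rank two: reduced Cartan forms. -/

open scoped ComplexConjugate

namespace Cfsg.Agent.H25.TV3

open Cfsg Cfsg.Agent.H3 Cfsg.Agent.H3.CharBasic Cfsg.Agent.H3.CharIrr Cfsg.Agent.H3.CharComplete
  Cfsg.Agent.H25.Brauer Cfsg.Agent.H25.BrauerP Cfsg.Agent.H25.Elem
  Cfsg.Agent.H10.Char Cfsg.Agent.H10.BlockLoc Cfsg.Agent.H10.BlockAlg Cfsg.Agent.H10.BlockIdem
  Cfsg.Agent.H10.BlockOrth Cfsg.Agent.H10.BlockHZ Cfsg.Agent.H10.BlockInd Cfsg.Agent.H10.PPart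
  Cfsg.Agent.H10.BlockSMT Cfsg.Agent.H10.BlockSMT2 Cfsg.Agent.H10.BlockPrin Cfsg.Agent.H10.BlockDefect
  Cfsg.Agent.H25.BlockReg Cfsg.Agent.H25.BlockReg2 Cfsg.Agent.H25.BlockReg3 Cfsg.Agent.H25.IndCong
  Cfsg.Agent.H25.Sub Cfsg.Agent.H25.Sub2 Cfsg.Agent.H25.Avg Cfsg.Agent.H3.CharGal
  Cfsg.Agent.H25.TV Cfsg.Agent.H25.TV2

/-- arithmetic of reduced binary forms -/
theorem arith {p : ℕ} (hp : p.Prime) (d : ℕ) {a b c : ℤ} (ha : 0 < a) (hc : 0 < c) (hb : 0 < b)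
    (h1 : 2 * b ≤ a) (h2 : 2 * b ≤ c) (hΔ : 0 < a * c - b * b)
    (d1 : a * c - b * b ∣ p ^ d * a) (d2 : a * c - b * b ∣ p ^ d * b) (d3 : a * c - b * b ∣ p ^ d * c) :
    a + c - b ≤ p ^ d := by
  set g : ℤ := ((Int.gcd (Int.gcd a b) c : ℕ) : ℤ) with hg
  have hga : g ∣ a := (Int.gcd_dvd_left _ _).trans (Int.gcd_dvd_left _ _)
  have hgb : g ∣ b := (Int.gcd_dvd_left _ _).trans (Int.gcd_dvd_right _ _)
  have hgc : g ∣ c := Int.gcd_dvd_right _ _
  have hgpos : 0 < g := by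
    rw [hg]
    have : 0 < Int.gcd (Int.gcd a b) c := Int.gcd_pos_of_ne_zero_right _ hc.ne'
    exact_mod_cast this
  have hpd : (0 : ℤ) < p ^ d := by exact_mod_cast pow_pos hp.pos d
  have hdg : a * c - b * b ∣ p ^ d * g := by
    have e1 : a * c - b * b ∣ p ^ d * ((Int.gcd a b : ℕ) : ℤ) := by
      have h3 := Int.dvd_coe_gcd d1 d2
      rw [Int.gcd_mul_left] at h3
      have h4 : (((p : ℤ) ^ d).natAbs : ℤ) = p ^ d := Int.natAbs_of_nonneg hpd.le
      rw [Nat.cast_mul, h4] at h3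
      exact h3
    have h3 := Int.dvd_coe_gcd e1 d3
    rw [Int.gcd_mul_left] at h3
    have h4 : (((p : ℤ) ^ d).natAbs : ℤ) = p ^ d := Int.natAbs_of_nonneg hpd.le
    rw [Nat.cast_mul, h4] at h3
    exact h3
  clear_value g
  clear hg
  obtain ⟨a', rfl⟩ := hga
  obtain ⟨b', rfl⟩ := hgb
  obtain ⟨c', rfl⟩ := hgc
  have e2 : g * a' * (g * c') - g * b' * (g * b') = g * (g * (a' * c' - b' * b')) := by ring
  rw [e2] at hdg hΔ
  have h3 : g * (a' * c' - b' * b') ∣ p ^ d := by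
    rw [mul_comm ((p : ℤ) ^ d) g] at hdg
    exact (mul_dvd_mul_iff_left hgpos.ne').1 hdg
  have h4 := Int.le_of_dvd hpd h3
  refine le_trans ?_ h4
  have hb' : 1 ≤ b' := by
    by_contra hcon
    have : b' ≤ 0 := by omega
    have := mul_nonpos_of_nonneg_of_nonpos hgpos.le this
    omega
  have h1' : 2 * b' ≤ a' := by
    have : g * (2 * b') ≤ g * a' := by linarith
    exact le_of_mul_le_mul_left this hgpos
  have h2' : 2 * b' ≤ c' := by
    have : g * (2 * b') ≤ g * c' := by linarith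
    exact le_of_mul_le_mul_left this hgpos
  have h5 : a' + c' - b' ≤ a' * c' - b' * b' := by
    nlinarith [mul_nonneg (show (0:ℤ) ≤ a' - 2 * b' by omega) (show (0:ℤ) ≤ c' - 2 * b' by omega),
      mul_nonneg (show (0:ℤ) ≤ b' - 1 by omega) (show (0:ℤ) ≤ a' - 2 * b' by omega),
      mul_nonneg (show (0:ℤ) ≤ b' - 1 by omega) (show (0:ℤ) ≤ c' - 2 * b' by omega),
      mul_nonneg (show (0:ℤ) ≤ b' - 1 by omega) (show (0:ℤ) ≤ b' - 1 by omega)]
  have : g * a' + g * c' - g * b' = g * (a' + c' - b') := by ring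
  rw [this]
  exact mul_le_mul_of_nonneg_left h5 hgpos.le

variable {p : ℕ} {M : Ideal AlgInt}

section lat
variable {C : Type*} [Group C] [Fintype C] [Fintype (IrrCharacter C)]

/-- a dual basis of a lattice of rank two -/
structure DB (p : ℕ) (b : Set (IrrCharacter C)) (w1 w2 u1 u2 : IrrCharacter C → ℤ) : Prop where
  m1 : w1 ∈ LL p b
  m2 : w2 ∈ LL p b
  d11 : ∑ φ, u1 φ * w1 φ = 1
  d12 : ∑ φ, u1 φ * w2 φ = 0
  d21 : ∑ φ, u2 φ * w1 φ = 0
  d22 : ∑ φ, u2 φ * w2 φ = 1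
  sp : ∀ w ∈ LL p b, w = (∑ φ, u1 φ * w φ) • w1 + (∑ φ, u2 φ * w φ) • w2

/-- inner product -/
def ip (w w' : IrrCharacter C → ℤ) : ℤ := ∑ φ, w φ * w' φ

theorem ip_self_nonneg (w : IrrCharacter C → ℤ) : 0 ≤ ip w w :=
  Finset.sum_nonneg fun φ _ => mul_self_nonneg _

theorem ip_self_pos {w : IrrCharacter C → ℤ} (h : w ≠ 0) : 0 < ip w w := by
  refine lt_of_le_of_ne (ip_self_nonneg w) ?_
  intro h0
  apply h
  funext φ
  have h1 := (Finset.sum_eq_zero_iff_of_nonneg (fun φ _ => mul_self_nonneg (w φ))).1 h0.symm φ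
    (Finset.mem_univ _)
  exact mul_self_eq_zero.1 h1

theorem ip_comm (w w' : IrrCharacter C → ℤ) : ip w w' = ip w' w := by
  unfold ip
  exact Finset.sum_congr rfl fun φ _ => mul_comm _ _

theorem ip_add_left (w w' v : IrrCharacter C → ℤ) : ip (w + w') v = ip w v + ip w' v := by
  unfold ip
  rw [← Finset.sum_add_distrib]
  exact Finset.sum_congr rfl fun φ _ => by rw [Pi.add_apply]; ring

theorem ip_smul_left (n : ℤ) (w v : IrrCharacter C → ℤ) : ip (n • w) v = n * ip w v := by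
  unfold ip
  rw [Finset.mul_sum]
  exact Finset.sum_congr rfl fun φ _ => by rw [Pi.smul_apply, smul_eq_mul]; ring

theorem ip_sub (w v : IrrCharacter C → ℤ) : ip (w - v) (w - v) = ip w w + ip v v - 2 * ip w v := by
  unfold ip
  rw [Finset.mul_sum, ← Finset.sum_add_distrib, ← Finset.sum_sub_distrib]
  exact Finset.sum_congr rfl fun φ _ => by rw [Pi.sub_apply]; ring

theorem cs_ineq (w v : IrrCharacter C → ℤ) : ip w v * ip w v ≤ ip w w * ip v v := by
  have := Finset.sum_mul_sq_le_sq_mul_sq (Finset.univ : Finset (IrrCharacter C)) w v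
  unfold ip
  have h1 : ∀ f : IrrCharacter C → ℤ, ∑ φ, f φ * f φ = ∑ φ, f φ ^ 2 := fun f =>
    Finset.sum_congr rfl fun φ _ => (sq _).symm
  rw [h1, h1, ← sq]
  exact this

namespace DB
variable {b : Set (IrrCharacter C)} {w1 w2 u1 u2 : IrrCharacter C → ℤ}

theorem ne1 (h : DB p b w1 w2 u1 u2) : w1 ≠ 0 := by
  rintro rfl
  have := h.d11
  simp at this

theorem swap (h : DB p b w1 w2 u1 u2) : DB p b w2 w1 u2 u1 :=
  ⟨h.m2, h.m1, h.d22, h.d21, h.d12, h.d11, fun w hw => (h.sp w hw).trans (add_comm _ _)⟩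

theorem ne2 (h : DB p b w1 w2 u1 u2) : w2 ≠ 0 := h.swap.ne1

theorem neg (h : DB p b w1 w2 u1 u2) : DB p b w1 (-w2) u1 (-u2) where
  m1 := h.m1
  m2 := Submodule.neg_mem _ h.m2
  d11 := h.d11
  d12 := by
    simp only [Pi.neg_apply, mul_neg, Finset.sum_neg_distrib]; rw [h.d12, neg_zero]
  d21 := by
    simp only [Pi.neg_apply, neg_mul, Finset.sum_neg_distrib]; rw [h.d21, neg_zero]
  d22 := by
    simp only [Pi.neg_apply, neg_mul_neg]; exact h.d22
  sp := fun w hw => by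
    simp only [Pi.neg_apply, neg_mul, Finset.sum_neg_distrib, neg_smul, smul_neg, neg_neg]
    exact h.sp w hw

theorem sub (h : DB p b w1 w2 u1 u2) : DB p b w1 (w2 - w1) (u1 + u2) u2 where
  m1 := h.m1
  m2 := Submodule.sub_mem _ h.m2 h.m1
  d11 := by
    simp only [Pi.add_apply, add_mul, Finset.sum_add_distrib]; rw [h.d11, h.d21, add_zero]
  d12 := by
    simp only [Pi.add_apply, Pi.sub_apply, add_mul, mul_sub, Finset.sum_add_distrib,
      Finset.sum_sub_distrib]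
    rw [h.d11, h.d21, h.d12, h.d22]; ring
  d21 := h.d21
  d22 := by
    simp only [Pi.sub_apply, mul_sub, Finset.sum_sub_distrib]
    rw [h.d21, h.d22]; ring
  sp := fun w hw => by
    conv_lhs => rw [h.sp w hw]
    simp only [Pi.add_apply, add_mul, Finset.sum_add_distrib, add_smul, smul_sub]
    abel

theorem reduce_aux : ∀ (n : ℕ) {w1 w2 u1 u2 : IrrCharacter C → ℤ}, DB p b w1 w2 u1 u2 →
    (ip w1 w1 + ip w2 w2).toNat ≤ n → ∃ v1 v2 t1 t2, DB p b v1 v2 t1 t2 ∧ 0 ≤ ip v1 v2 ∧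
      2 * ip v1 v2 ≤ ip v1 v1 ∧ 2 * ip v1 v2 ≤ ip v2 v2 := by
  intro n
  induction n with
  | zero =>
    intro w1 w2 u1 u2 h hn
    have := ip_self_pos h.ne1
    have := ip_self_pos h.ne2
    omega
  | succ n ih =>
    intro w1 w2 u1 u2 h hn
    -- sign
    obtain ⟨w2', u2', h', hs, hb⟩ : ∃ w2' u2', DB p b w1 w2' u1 u2' ∧ ip w2' w2' = ip w2 w2 ∧
        0 ≤ ip w1 w2' := by
      by_cases h0 : 0 ≤ ip w1 w2
      · exact ⟨w2, u2, h, rfl, h0⟩
      · refine ⟨-w2, -u2, h.neg, ?_, ?_⟩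
        · unfold ip; simp
        · have : ip w1 (-w2) = - ip w1 w2 := by unfold ip; simp
          rw [this]; omega
    by_cases h1 : 2 * ip w1 w2' ≤ ip w1 w1
    · by_cases h2 : 2 * ip w1 w2' ≤ ip w2' w2'
      · exact ⟨w1, w2', u1, u2', h', hb, h1, h2⟩
      · refine ih h'.swap.sub ?_
        rw [ip_sub, ip_comm w1 w2']
        rw [ip_comm w1 w2'] at h2
        have := ip_self_pos h'.ne1
        have := ip_self_pos h'.ne2
        have := ip_self_nonneg (w1 - w2')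
        rw [ip_sub, ip_comm w1 w2'] at this
        omega
    · refine ih h'.sub ?_
      rw [ip_sub, ip_comm w2' w1]
      have := ip_self_pos h'.ne1
      have := ip_self_pos h'.ne2
      have := ip_self_nonneg (w2' - w1)
      rw [ip_sub, ip_comm w2' w1] at this
      omega

theorem reduce (h : DB p b w1 w2 u1 u2) : ∃ v1 v2 t1 t2, DB p b v1 v2 t1 t2 ∧ 0 ≤ ip v1 v2 ∧
      2 * ip v1 v2 ≤ ip v1 v1 ∧ 2 * ip v1 v2 ≤ ip v2 v2 := reduce_aux _ h le_rfl

open Classical in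
/-- combination of rows -/
noncomputable def KK (p : ℕ) [hp : Fact p.Prime] (b : Set (IrrCharacter C)) (u : IrrCharacter C → ℤ) : IrrCharacter C → ℤ :=
  ∑ φ, if φ ∈ b then u φ • (fun ψ => kk p b φ ψ) else 0

theorem KK_mem [hp : Fact p.Prime] (hM : IsPModular p M) (hb : IsPBlock M b)
    (u : IrrCharacter C → ℤ) : KK p b u ∈ LL p b := by
  classical
  refine Submodule.sum_mem _ fun φ _ => ?_
  split_ifs with hφ
  · exact Submodule.smul_mem _ _ (kk_mem hM hb hφ)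
  · exact Submodule.zero_mem _

theorem KK_ip [hp : Fact p.Prime] (u : IrrCharacter C → ℤ) {w : IrrCharacter C → ℤ} (hw : w ∈ LL p b) :
    ip (KK p b u) w = p ^ blockDefect p b * ∑ φ, u φ * w φ := by
  classical
  unfold ip KK
  have h1 : ∀ ψ, (∑ φ, if φ ∈ b then u φ • (fun ψ => kk p b φ ψ) else 0 : IrrCharacter C → ℤ) ψ * w ψ =
      ∑ φ, if φ ∈ b then u φ * (kk p b φ ψ * w ψ) else 0 := by
    intro ψ
    rw [Finset.sum_apply, Finset.sum_mul]
    refine Finset.sum_congr rfl fun φ _ => ?_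
    split_ifs
    · rw [Pi.smul_apply, smul_eq_mul, mul_assoc]
    · simp
  rw [Finset.sum_congr rfl fun ψ _ => h1 ψ, Finset.sum_comm, Finset.mul_sum]
  refine Finset.sum_congr rfl fun φ _ => ?_
  by_cases hφ : φ ∈ b
  · simp only [if_pos hφ]
    rw [← Finset.mul_sum, kk_pair hφ hw]
    push_cast; ring
  · simp only [if_neg hφ, Finset.sum_const_zero]
    rw [hw.1 φ hφ]; ring

theorem disc [hp : Fact p.Prime] (hM : IsPModular p M) (hb : IsPBlock M b) (h : DB p b w1 w2 u1 u2) :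
    0 < ip w1 w1 * ip w2 w2 - ip w1 w2 * ip w1 w2 ∧
    ip w1 w1 * ip w2 w2 - ip w1 w2 * ip w1 w2 ∣ p ^ blockDefect p b * ip w1 w1 ∧
    ip w1 w1 * ip w2 w2 - ip w1 w2 * ip w1 w2 ∣ p ^ blockDefect p b * ip w1 w2 ∧
    ip w1 w1 * ip w2 w2 - ip w1 w2 * ip w1 w2 ∣ p ^ blockDefect p b * ip w2 w2 := by
  have e1 := h.sp _ (KK_mem hM hb u1)
  have e2 := h.sp _ (KK_mem hM hb u2)
  set α := ∑ φ, u1 φ * KK p b u1 φ
  set β := ∑ φ, u2 φ * KK p b u1 φ
  set α' := ∑ φ, u1 φ * KK p b u2 φ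
  set β' := ∑ φ, u2 φ * KK p b u2 φ
  have a1 := KK_ip (p := p) (b := b) u1 h.m1
  have a2 := KK_ip (p := p) (b := b) u1 h.m2
  have b1 := KK_ip (p := p) (b := b) u2 h.m1
  have b2 := KK_ip (p := p) (b := b) u2 h.m2
  rw [e1, ip_add_left, ip_smul_left, ip_smul_left] at a1 a2
  rw [e2, ip_add_left, ip_smul_left, ip_smul_left] at b1 b2
  rw [h.d11, mul_one, ip_comm w2 w1] at a1
  rw [h.d12, mul_zero] at a2
  rw [h.d21, mul_zero, ip_comm w2 w1] at b1
  rw [h.d22, mul_one] at b2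
  set a := ip w1 w1 with ha
  set c := ip w2 w2 with hc
  set e := ip w1 w2 with he
  have hcpos : 0 < c := ip_self_pos h.ne2
  have hppos : (0 : ℤ) < p ^ blockDefect p b := by exact_mod_cast pow_pos hp.out.pos _
  have k1 : α * (a * c - e * e) = p ^ blockDefect p b * c := by
    linear_combination c * a1 - e * a2
  have k2 : -β * (a * c - e * e) = p ^ blockDefect p b * e := by
    linear_combination e * a1 - a * a2
  have k3 : β' * (a * c - e * e) = p ^ blockDefect p b * a := by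
    linear_combination a * b2 - e * b1
  have h0 : 0 ≤ a * c - e * e := by
    have := cs_ineq w1 w2
    rw [← ha, ← hc, ← he] at this
    linarith
  refine ⟨lt_of_le_of_ne h0 ?_, ⟨β', by rw [← k3]; ring⟩, ⟨-β, by rw [← k2]; ring⟩,
    ⟨α, by rw [← k1]; ring⟩⟩
  intro hz
  rw [← hz, mul_zero] at k1
  have := mul_pos hppos hcpos
  omega

end DB

end lat

end Cfsg.Agent.H25.TV3
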