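import Cfsg.Agent.H25_TV3

/-! Major subsections of rank at most two: `k(B) ≤ p ^ d`. -/

open scoped ComplexConjugate

namespace Cfsg.Agent.H25.TV4

open Cfsg Cfsg.Agent.H3 Cfsg.Agent.H3.CharBasic Cfsg.Agent.H3.CharIrr Cfsg.Agent.H3.CharComplete
  Cfsg.Agent.H25.Brauer Cfsg.Agent.H25.BrauerP Cfsg.Agent.H25.Elem
  Cfsg.Agent.H10.Char Cfsg.Agent.H10.BlockLoc Cfsg.Agent.H10.BlockAlg Cfsg.Agent.H10.BlockIdem
  Cfsg.Agent.H10.BlockOrth Cfsg.Agent.H10.BlockHZ Cfsg.Agent.H10.BlockInd Cfsg.Agent.H10.PPart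
  Cfsg.Agent.H10.BlockSMT Cfsg.Agent.H10.BlockSMT2 Cfsg.Agent.H10.BlockPrin Cfsg.Agent.H10.BlockDefect
  Cfsg.Agent.H25.BlockReg Cfsg.Agent.H25.BlockReg2 Cfsg.Agent.H25.BlockReg3 Cfsg.Agent.H25.IndCong
  Cfsg.Agent.H25.Sub Cfsg.Agent.H25.Sub2 Cfsg.Agent.H25.Avg Cfsg.Agent.H3.CharGal
  Cfsg.Agent.H25.Sub7 Cfsg.Agent.H25.TV Cfsg.Agent.H25.TV2 Cfsg.Agent.H25.TV3

theorem frob_mod {R : Type*} [CommRing R] {p : ℕ} (hp : p.Prime) {ι : Type*} (s : Finset ι)
    (f : ι → R) (k : ℕ) : ∃ r : R, (∑ i ∈ s, f i) ^ (p ^ k) = ∑ i ∈ s, f i ^ (p ^ k) + p * r := by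
  classical
  induction s using Finset.induction_on with
  | empty =>
    refine ⟨0, ?_⟩
    rw [Finset.sum_empty, Finset.sum_empty, zero_pow (pow_pos hp.pos k).ne', mul_zero, add_zero]
  | insert a s ha ih =>
    obtain ⟨r, hr⟩ := ih
    obtain ⟨t, ht⟩ := exists_add_pow_prime_pow_eq hp (f a) (∑ i ∈ s, f i) k
    refine ⟨r + f a * (∑ i ∈ s, f i) * t, ?_⟩
    rw [Finset.sum_insert ha, Finset.sum_insert ha, ht, hr]
    ring

theorem frob_mod' {p : ℕ} (hp : p.Prime) {ι : Type*} (s : Finset ι)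
    (n : ι → ℤ) (z : ι → ℂ) (k : ℕ) (hz : ∀ i ∈ s, z i ^ (p ^ k) = 1) :
    ∃ (m : ℤ) (y : ℂ), IsIntegral ℤ y ∧ (∑ i ∈ s, (n i : ℂ) * z i) ^ (p ^ k) = m + p * y := by
  classical
  have hint : ∀ i, i ∈ s → IsIntegral ℤ (z i) := fun i hi =>
    IsIntegral.of_pow (pow_pos hp.pos k) (by rw [hz i hi]; exact isIntegral_one)
  obtain ⟨r, hr⟩ := frob_mod (R := AlgInt) hp s.attach
    (fun i => (n i : AlgInt) * ⟨z i, hint i i.2⟩) k
  refine ⟨∑ i ∈ s, n i ^ (p ^ k), (r : ℂ), r.2, ?_⟩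
  have := congrArg (fun a : AlgInt => (a : ℂ)) hr
  rw [← Finset.sum_attach s (fun i => (n i : ℂ) * z i), ← Finset.sum_attach s (fun i => n i ^ (p ^ k))]
  push_cast at this ⊢
  rw [this]
  congr 1
  refine Finset.sum_congr rfl fun i _ => ?_
  rw [mul_pow, hz i i.2, mul_one]

variable {p : ℕ} {M : Ideal AlgInt}

theorem not_ideal_pow (hM : IsPModular p M) {x : ℂ} (hx : MemLocalRing M x) (h : ¬ MemLocalIdeal M x) (n : ℕ) :
    ¬ MemLocalIdeal M (x ^ n) := by
  haveI := hM.2.1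
  induction n with
  | zero => rw [pow_zero]; exact one_notMem_ideal
  | succ n ih =>
    intro h1
    rw [pow_succ] at h1
    rcases ideal_of_mul (ring_pow hx n) hx h1 with h2 | h2
    · exact ih h2
    · exact h h2

theorem unit_cancel (hM : IsPModular p M) {ι : Type*} (s : Finset ι)
    (n : ι → ℤ) (z : ι → ℂ) (k : ℕ) (hz : ∀ i ∈ s, z i ^ (p ^ k) = 1) {x : ℂ}
    (hx : x = ∑ i ∈ s, (n i : ℂ) * z i) (hu : ¬ MemLocalIdeal M x) {w : ℂ} (hw : IsIntegral ℤ w)
    (h : IsIntegral ℤ (x * w / p)) : IsIntegral ℤ (w / p) := by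
  haveI := hM.2.1
  have hp := hM.1
  have hMt : M ≠ ⊤ := hM.2.1.ne_top
  have hp0 : (p : ℂ) ≠ 0 := by exact_mod_cast hp.ne_zero
  have hzi : ∀ i ∈ s, IsIntegral ℤ (z i) := fun i hi =>
    IsIntegral.of_pow (pow_pos hp.pos k) (by rw [hz i hi]; exact isIntegral_one)
  have hxi : IsIntegral ℤ x := by
    rw [hx]
    exact IsIntegral.sum _ fun i hi => (isIntegral_algebraMap (x := n i)).mul (hzi i hi)
  obtain ⟨m, y, hy, he⟩ := frob_mod' hp s n z k hz
  rw [← hx] at he
  have hm : ¬ (p : ℤ) ∣ m := by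
    intro hd
    refine not_ideal_pow hM (memLocalRing_of_integral hMt hxi) hu (p ^ k) ?_
    rw [he]
    exact ideal_add ((ideal_intCast_iff hM m).2 hd)
      (ideal_mul_right ((ideal_natCast_iff hM p).2 dvd_rfl) (memLocalRing_of_integral hMt hy))
  have hk : p ^ k = (p ^ k - 1) + 1 := by
    have := pow_pos hp.pos k
    omega
  have h1 : IsIntegral ℤ ((m : ℂ) * (w / p)) := by
    have e : (m : ℂ) * (w / p) = x ^ (p ^ k - 1) * (x * w / p) - y * w := by
      have e1 : x ^ (p ^ k - 1) * (x * w / p) = x ^ (p ^ k) * (w / p) := by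
        conv_rhs => rw [hk, pow_succ]
        ring
      rw [e1, he]
      field_simp
      ring
    rw [e]
    exact ((hxi.pow _).mul h).sub (hy.mul hw)
  have h2 : IsIntegral ℤ ((m.natAbs : ℂ) * (w / p)) := by
    rcases Int.natAbs_eq m with h3 | h3
    · have : (m : ℂ) = (m.natAbs : ℂ) := by
        conv_lhs => rw [h3]
        rw [Int.cast_natCast]
      rw [← this]; exact h1
    · have : (m.natAbs : ℂ) = -(m : ℂ) := by
        conv_rhs => rw [h3]
        rw [Int.cast_neg, Int.cast_natCast, neg_neg]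
      rw [this, neg_mul]; exact h1.neg
  refine integral_coprime (a := m.natAbs) (b := p) ?_ h2 ?_
  · rw [Nat.coprime_comm, Nat.Prime.coprime_iff_not_dvd hp]
    intro h3
    exact hm (Int.natCast_dvd.2 h3)
  · have : (p : ℂ) * (w / p) = w := by field_simp
    rw [this]; exact hw

section
variable {G : Type*} [Group G] [Fintype G] [hp : Fact p.Prime] {x : G}
  [Fintype (Subgroup.centralizer ({x} : Set G))] [Fintype (IrrCharacter G)]
  [Fintype (IrrCharacter (Subgroup.centralizer ({x} : Set G)))]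

theorem de_unit_cancel (hM : IsPModular p M) (hx : ∃ k : ℕ, orderOf x = p ^ k) (χ : IrrCharacter G)
    (w : IrrCharacter (Subgroup.centralizer ({x} : Set G)) → ℤ)
    (hu : ¬ MemLocalIdeal M (de x χ w)) {v : ℂ} (hv : IsIntegral ℤ v)
    (h : IsIntegral ℤ (de x χ w * v / p)) : IsIntegral ℤ (v / p) := by
  obtain ⟨k, hk⟩ := hx
  refine unit_cancel hM Finset.univ (fun φ => w φ * (aa (Subgroup.centralizer ({x} : Set G)) χ φ : ℤ))
    (fun φ => zl (zz x) φ) k (fun φ _ => ?_) (x := de x χ w) ?_ hu hv h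
  · rw [← hk]; exact Sub3.zl_ord φ
  · unfold de
    refine Finset.sum_congr rfl fun φ _ => ?_
    push_cast
    ring

theorem not_both {b : Set (IrrCharacter (Subgroup.centralizer ({x} : Set G)))}
    {B : Set (IrrCharacter G)}
    {w1 w2 u1 u2 : IrrCharacter (Subgroup.centralizer ({x} : Set G)) → ℤ}
    (h : DB p b w1 w2 u1 u2) (hM : IsPModular p M) (hx : ∃ k : ℕ, orderOf x = p ^ k)
    (hind : IsInducedBlock M (Subgroup.centralizer ({x} : Set G)) b B)
    (hmaj : blockDefect p b = blockDefect p B) {χ : IrrCharacter G} (hχ : χ ∈ B)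
    (h1 : de x χ w1 = 0) (h2 : de x χ w2 = 0) : False := by
  obtain ⟨w, hw, hne⟩ := exists_de_ne hM hx hind hmaj hχ
  apply hne
  rw [h.sp w hw, de_add, de_smul, de_smul, h1, h2, mul_zero, mul_zero, add_zero]

/-- the case `b > 0` -/
theorem case_pos {b : Set (IrrCharacter (Subgroup.centralizer ({x} : Set G)))}
    {B : Set (IrrCharacter G)}
    {w1 w2 u1 u2 : IrrCharacter (Subgroup.centralizer ({x} : Set G)) → ℤ}
    (h : DB p b w1 w2 u1 u2) (hM : IsPModular p M) (hx : ∃ k : ℕ, orderOf x = p ^ k)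
    (hind : IsInducedBlock M (Subgroup.centralizer ({x} : Set G)) b B)
    (hmaj : blockDefect p b = blockDefect p B) (hb : IsPBlock M b)
    (S : Finset (IrrCharacter G)) (hS : ∀ χ ∈ S, χ ∈ B)
    (h0 : 0 < ip w1 w2) (h1 : 2 * ip w1 w2 ≤ ip w1 w1) (h2 : 2 * ip w1 w2 ≤ ip w2 w2) :
    S.card ≤ p ^ blockDefect p b := by
  classical
  obtain ⟨d0, d1, d2, d3⟩ := h.disc hM hb
  have ha := arith hp.out (blockDefect p b) (ip_self_pos h.ne1) (ip_self_pos h.ne2) h0 h1 h2 d0 d1 d2 d3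
  have hsub : w1 - w2 ∈ LL p b := Submodule.sub_mem _ h.m1 h.m2
  have key := tv (p := p) (x := x) hx (b := b) (Finset.univ : Finset (Fin 3)) ![w1, w2, w1 - w2] (by
    intro i _
    fin_cases i
    · exact h.m1
    · exact h.m2
    · exact hsub) S 2 (by
    intro χ hχ
    have hde : de x χ (w1 - w2) = de x χ w1 - de x χ w2 := by
      have : w1 - w2 = w1 + (-1 : ℤ) • w2 := by rw [neg_one_smul, sub_eq_add_neg]
      rw [this, de_add, de_smul]; push_cast; ring
    have hnb := not_both h hM hx hind hmaj (hS χ hχ)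
    have htwo : ∃ i j : Fin 3, i ≠ j ∧ de x χ (![w1, w2, w1 - w2] i) ≠ 0 ∧
        de x χ (![w1, w2, w1 - w2] j) ≠ 0 := by
      by_cases e1 : de x χ w1 = 0
      · have e2 : de x χ w2 ≠ 0 := fun e2 => hnb e1 e2
        refine ⟨1, 2, by decide, e2, ?_⟩
        show de x χ (w1 - w2) ≠ 0
        rw [hde, e1, zero_sub, neg_ne_zero]; exact e2
      · by_cases e2 : de x χ w2 = 0
        · refine ⟨0, 2, by decide, e1, ?_⟩
          show de x χ (w1 - w2) ≠ 0
          rw [hde, e2, sub_zero]; exact e1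
        · exact ⟨0, 1, by decide, e1, e2⟩
    obtain ⟨i, j, hij, hi, hj⟩ := htwo
    have : ({i, j} : Finset (Fin 3)) ⊆ Finset.univ.filter (fun i => de x χ (![w1, w2, w1 - w2] i) ≠ 0) := by
      intro k hk
      rw [Finset.mem_insert, Finset.mem_singleton] at hk
      rw [Finset.mem_filter]
      rcases hk with rfl | rfl
      · exact ⟨Finset.mem_univ _, hi⟩
      · exact ⟨Finset.mem_univ _, hj⟩
    have h5 := Finset.card_le_card this
    rwa [Finset.card_pair hij] at h5)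
  rw [Fin.sum_univ_three] at key
  have e : ∀ w : IrrCharacter (Subgroup.centralizer ({x} : Set G)) → ℤ, ∑ φ, w φ ^ 2 = ip w w :=
    fun w => Finset.sum_congr rfl fun φ _ => sq _
  simp only [e, Matrix.cons_val_zero, Matrix.cons_val_one, Matrix.cons_val_two, Matrix.head_cons,
    Matrix.tail_cons, Matrix.cons_val] at key
  rw [ip_sub] at key
  have hfin : ((S.card : ℕ) : ℤ) ≤ ((p ^ blockDefect p b : ℕ) : ℤ) := by
    push_cast at key ⊢
    linarith
  exact_mod_cast hfin

theorem NN_diag {b : Set (IrrCharacter (Subgroup.centralizer ({x} : Set G)))}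
    {w1 w2 u1 u2 : IrrCharacter (Subgroup.centralizer ({x} : Set G)) → ℤ}
    (h : DB p b w1 w2 u1 u2) (hM : IsPModular p M) (hb : IsPBlock M b)
    (h0 : ip w1 w2 = 0) {t : ℕ} (h1 : p ^ t * ip w1 w1 = p ^ blockDefect p b)
    (h2 : ip w2 w2 = p ^ blockDefect p b) :
    (∀ φ ∈ b, (fun ψ => kk p b φ ψ) = (p ^ t * w1 φ : ℤ) • w1 + w2 φ • w2) ∧
    ∀ χ ψ : IrrCharacter G, NN p x b χ ψ = (p ^ t : ℕ) * (de x χ w1 * conj (de x ψ w1)) +
      de x χ w2 * conj (de x ψ w2) := by
  classical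
  have hkk : ∀ φ ∈ b, (fun ψ => kk p b φ ψ) = (p ^ t * w1 φ : ℤ) • w1 + w2 φ • w2 := by
    intro φ hφ
    have e := h.sp _ (kk_mem hM hb hφ)
    set α := ∑ ψ, u1 ψ * kk p b φ ψ
    set β := ∑ ψ, u2 ψ * kk p b φ ψ
    have a1 : ip (fun ψ => kk p b φ ψ) w1 = _ := kk_pair hφ h.m1
    have a2 : ip (fun ψ => kk p b φ ψ) w2 = _ := kk_pair hφ h.m2
    rw [e, ip_add_left, ip_smul_left, ip_smul_left] at a1 a2
    rw [ip_comm w2 w1, h0, mul_zero, add_zero] at a1
    rw [h0, mul_zero, zero_add, h2] at a2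
    have hα : α = p ^ t * w1 φ := by
      have : (p ^ blockDefect p b : ℕ) * w1 φ = (p ^ t * w1 φ : ℤ) * ip w1 w1 := by
        push_cast
        rw [← h1]; ring
      rw [this] at a1
      exact mul_right_cancel₀ (ip_self_pos h.ne1).ne' a1
    have hβ : β = w2 φ := by
      have hpp : (p ^ blockDefect p b : ℤ) ≠ 0 := by
        exact_mod_cast (pow_pos hp.out.pos _).ne'
      push_cast at a2
      rw [mul_comm (p ^ blockDefect p b : ℤ) (w2 φ)] at a2
      exact mul_right_cancel₀ hpp a2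
    rw [e, hα, hβ]
  refine ⟨hkk, fun χ ψ => ?_⟩
  rw [NN_de hM hb]
  have e1 : ∀ φ : IrrCharacter (Subgroup.centralizer ({x} : Set G)),
      (if φ ∈ b then ((aa (Subgroup.centralizer ({x} : Set G)) χ φ : ℂ) * zl (zz x) φ) *
        conj (de x ψ (fun φ' => kk p b φ φ')) else 0) =
      (p ^ t : ℕ) * (((w1 φ : ℂ) * ((aa (Subgroup.centralizer ({x} : Set G)) χ φ : ℂ) * zl (zz x) φ)) *
        conj (de x ψ w1)) +
      ((w2 φ : ℂ) * ((aa (Subgroup.centralizer ({x} : Set G)) χ φ : ℂ) * zl (zz x) φ)) *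
        conj (de x ψ w2) := by
    intro φ
    by_cases hφ : φ ∈ b
    · rw [if_pos hφ, hkk φ hφ, de_add, de_smul, de_smul, map_add, map_mul, map_mul, map_intCast,
        map_intCast]
      push_cast
      ring
    · rw [if_neg hφ, h.m1.1 φ hφ, h.m2.1 φ hφ]
      simp
  rw [Finset.sum_congr rfl fun φ _ => e1 φ, Finset.sum_add_distrib, ← Finset.mul_sum,
    ← Finset.sum_mul, ← Finset.sum_mul]
  rfl

/-- the Gram matrix is not orthonormal up to scaling -/
theorem not_orthonormal {C : Type*} [Group C] [Fintype C] [Fintype (IrrCharacter C)]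
    {b : Set (IrrCharacter C)} {w1 w2 u1 u2 : IrrCharacter C → ℤ}
    (h : DB p b w1 w2 u1 u2) (hM : IsPModular p M) (hb : IsPBlock M b)
    (hkk : ∀ φ ∈ b, (fun ψ => kk p b φ ψ) = w1 φ • w1 + w2 φ • w2) : False := by
  classical
  haveI := hM.2.1
  obtain ⟨κ, hκ, -, hk, -⟩ := exists_kappa hM hb
  have hmin : ∀ φ ∈ b, ∀ ρ ∈ b, (p : ℤ) ∣ w1 φ * w2 ρ - w2 φ * w1 ρ := by
    intro φ hφ ρ hρ
    have e : ∀ φ ∈ b, ∀ ψ, kk p b φ ψ = w1 φ * w1 ψ + w2 φ * w2 ψ := by
      intro φ hφ ψ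
      have := congrFun (hkk φ hφ) ψ
      simpa using this
    have hM1 : MemLocalIdeal M (((kk p b φ φ * kk p b ρ ρ - kk p b φ ρ * kk p b ρ φ : ℤ)) : ℂ) := by
      have a1 := hk φ hφ φ hφ
      have a2 := hk ρ hρ ρ hρ
      have a3 := hk φ hφ ρ hρ
      have a4 := hk ρ hρ φ hφ
      set f := (ff p b φ : ℂ)
      set g := (ff p b ρ : ℂ)
      have e1 : (((kk p b φ φ * kk p b ρ ρ - kk p b φ ρ * kk p b ρ φ : ℤ)) : ℂ) =
          ((kk p b φ φ : ℂ) - κ * f * f) * (kk p b ρ ρ : ℂ) +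
          (κ * f * f) * ((kk p b ρ ρ : ℂ) - κ * g * g) -
          (((kk p b φ ρ : ℂ) - κ * f * g) * (kk p b ρ φ : ℂ) +
          (κ * f * g) * ((kk p b ρ φ : ℂ) - κ * g * f)) := by
        push_cast; ring
      rw [e1]
      have hf : MemLocalRing M f := ring_natCast _
      have hg : MemLocalRing M g := ring_natCast _
      refine ideal_sub (ideal_add (ideal_mul_right a1 (ring_intCast _)) (ideal_mul_left ?_ a2))
        (ideal_add (ideal_mul_right a3 (ring_intCast _)) (ideal_mul_left ?_ a4))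
      · exact ring_mul (ring_mul hκ hf) hf
      · exact ring_mul (ring_mul hκ hf) hg
    rw [ideal_intCast_iff hM] at hM1
    rw [e φ hφ, e ρ hρ, e φ hφ, e ρ hρ] at hM1
    have e2 : (w1 φ * w1 φ + w2 φ * w2 φ) * (w1 ρ * w1 ρ + w2 ρ * w2 ρ) -
        (w1 φ * w1 ρ + w2 φ * w2 ρ) * (w1 ρ * w1 φ + w2 ρ * w2 φ) =
        (w1 φ * w2 ρ - w2 φ * w1 ρ) * (w1 φ * w2 ρ - w2 φ * w1 ρ) := by ring
    rw [e2] at hM1
    rcases (Nat.prime_iff_prime_int.1 hp.out).dvd_or_dvd hM1 with h3 | h3 <;> exact h3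
  have hsum : ∑ φ, ∑ ρ, (u1 φ * u2 ρ) * (w1 φ * w2 ρ - w2 φ * w1 ρ) = 1 := by
    have e3 : ∀ φ ρ, (u1 φ * u2 ρ) * (w1 φ * w2 ρ - w2 φ * w1 ρ) =
        (u1 φ * w1 φ) * (u2 ρ * w2 ρ) - (u1 φ * w2 φ) * (u2 ρ * w1 ρ) := by
      intro φ ρ; ring
    simp only [e3, Finset.sum_sub_distrib, ← Finset.mul_sum, ← Finset.sum_mul]
    rw [h.d11, h.d22, h.d12, h.d21]; norm_num
  have hdvd : (p : ℤ) ∣ 1 := by
    rw [← hsum]
    refine Finset.dvd_sum fun φ _ => Finset.dvd_sum fun ρ _ => Dvd.dvd.mul_left ?_ _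
    by_cases hφ : φ ∈ b
    · by_cases hρ : ρ ∈ b
      · exact hmin φ hφ ρ hρ
      · rw [h.m1.1 ρ hρ, h.m2.1 ρ hρ]; simp
    · rw [h.m1.1 φ hφ, h.m2.1 φ hφ]; simp
  have := Int.eq_one_of_dvd_one (by exact_mod_cast hp.out.pos.le) hdvd
  have := hp.out.one_lt
  omega

/-- the case of an orthogonal basis with `c = p ^ d` -/
theorem case_orth {b : Set (IrrCharacter (Subgroup.centralizer ({x} : Set G)))}
    {B : Set (IrrCharacter G)}
    {w1 w2 u1 u2 : IrrCharacter (Subgroup.centralizer ({x} : Set G)) → ℤ}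
    (h : DB p b w1 w2 u1 u2) (hM : IsPModular p M) (hx : ∃ k : ℕ, orderOf x = p ^ k)
    (hind : IsInducedBlock M (Subgroup.centralizer ({x} : Set G)) b B)
    (hmaj : blockDefect p b = blockDefect p B) (hb : IsPBlock M b) (hB : IsPBlock M B)
    (S : Finset (IrrCharacter G)) (hS : ∀ χ ∈ S, χ ∈ B)
    (h0 : ip w1 w2 = 0) {t : ℕ} (h1 : p ^ t * ip w1 w1 = p ^ blockDefect p b)
    (h2 : ip w2 w2 = p ^ blockDefect p b) :
    S.card ≤ p ^ blockDefect p b := by
  classical
  haveI := hM.2.1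
  have hMt : M ≠ ⊤ := hM.2.1.ne_top
  obtain ⟨hkk, hNN⟩ := NN_diag h hM hb h0 h1 h2
  have hp0 : (p : ℂ) ≠ 0 := by exact_mod_cast hp.out.ne_zero
  have e : ∀ w : IrrCharacter (Subgroup.centralizer ({x} : Set G)) → ℤ, ∑ φ, w φ ^ 2 = ip w w :=
    fun w => Finset.sum_congr rfl fun φ _ => sq _
  rcases Nat.eq_zero_or_pos t with ht | ht
  · subst ht
    exact (not_orthonormal h hM hb fun φ hφ => by rw [hkk φ hφ, pow_zero, one_mul]).elim
  set Z : Finset (IrrCharacter G) := S.filter (fun χ => de x χ w2 = 0) with hZ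
  rcases Finset.eq_empty_or_nonempty Z with hZe | ⟨ψ0, hψ0⟩
  · have key := wt hx h.m2 S (fun _ => 1) (by
      intro χ hχ
      refine ⟨fun h3 => ?_, one_ne_zero, by rw [Nat.cast_one, div_one]; exact de_int χ w2⟩
      have : χ ∈ Z := Finset.mem_filter.2 ⟨hχ, h3⟩
      rw [hZe] at this
      exact absurd this (Finset.notMem_empty _))
    rw [e, h2] at key
    simp only [one_pow, Finset.sum_const, smul_eq_mul, mul_one] at key
    exact_mod_cast key
  · have hψ0S := (Finset.mem_filter.1 hψ0).1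
    have hψ02 : de x ψ0 w2 = 0 := (Finset.mem_filter.1 hψ0).2
    -- those with `δ₁ ≠ 0`
    set S0 : Finset (IrrCharacter G) := S.filter (fun χ => blockHeight p B (χ : G → ℂ) = 0 ∨ de x χ w2 = 0)
      with hS0
    set S1 : Finset (IrrCharacter G) := S.filter (fun χ => ¬ (blockHeight p B (χ : G → ℂ) = 0 ∨ de x χ w2 = 0))
      with hS1
    have hcard : S0.card + S1.card = S.card := Finset.card_filter_add_card_filter_not _
    have k0 := wt hx h.m1 S0 (fun _ => 1) (by
      intro χ hχ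
      obtain ⟨hχS, hχ2⟩ := Finset.mem_filter.1 hχ
      refine ⟨fun h3 => ?_, one_ne_zero, by rw [Nat.cast_one, div_one]; exact de_int χ w1⟩
      rcases hχ2 with hχ2 | hχ2
      · have h4 := maj_ne hM hx hind hmaj (hS χ hχS) hχ2 (hS ψ0 hψ0S)
        apply h4
        rw [hNN, h3, hψ02, map_zero]; ring
      · exact not_both h hM hx hind hmaj (hS χ hχS) h3 hχ2)
    rw [e] at k0
    simp only [one_pow, Finset.sum_const, smul_eq_mul, mul_one] at k0
    -- height zero
    obtain ⟨χ0, hχ0, hh0⟩ := exists_height_zero (p := p) hB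
    have hu0 := NN_unit hM hx hind hχ0 hh0 hχ0 hh0
    have hpt : MemLocalIdeal M ((p ^ t : ℕ) : ℂ) := by
      rw [ideal_natCast_iff hM]; exact dvd_pow_self p ht.ne'
    have hd1 : ∀ χ w, MemLocalRing M (de x χ w) := fun χ w => memLocalRing_of_integral hMt (de_int χ w)
    have hconjint : ∀ (χ : IrrCharacter G) w, IsIntegral ℤ (conj (de x χ w)) := fun χ w =>
      (de_int χ w).map (Complex.conjAe.toAlgHom.restrictScalars ℤ)
    have hd1' : ∀ (χ : IrrCharacter G) w, MemLocalRing M (conj (de x χ w)) := fun χ w =>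
      memLocalRing_of_integral hMt (hconjint χ w)
    have hunit : ¬ MemLocalIdeal M (de x χ0 w2) := by
      intro h3
      apply hu0
      rw [hNN]
      exact ideal_add (ideal_mul_right hpt (ring_mul (hd1 _ _) (hd1' _ _))) (ideal_mul_right h3 (hd1' _ _))
    have k1 := wt hx h.m2 S1 (fun _ => p) (by
      intro χ hχ
      obtain ⟨hχS, hχ2⟩ := Finset.mem_filter.1 hχ
      rw [not_or] at hχ2
      refine ⟨hχ2.2, hp.out.ne_zero, ?_⟩
      have h3 := maj_int hM hx hb hB hmaj χ0 (hS χ hχS)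
      have h4 : IsIntegral ℤ (NN p x b χ0 χ / p) := by
        obtain ⟨m, hm⟩ := Nat.exists_eq_succ_of_ne_zero hχ2.1
        have : NN p x b χ0 χ / p = (p : ℂ) ^ m * (NN p x b χ0 χ /
            ((p ^ blockHeight p B (χ : G → ℂ) : ℕ) : ℂ)) := by
          rw [hm, Nat.succ_eq_add_one]; push_cast; field_simp; ring
        rw [this]
        have hpi : IsIntegral ℤ (p : ℂ) := by
          have := isIntegral_algebraMap (R := ℤ) (x := (p : ℤ)) (A := ℂ)
          simpa using this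
        exact (hpi.pow m).mul h3
      have h5 : IsIntegral ℤ (de x χ0 w2 * conj (de x χ w2) / p) := by
        obtain ⟨s, rfl⟩ : ∃ s, t = s + 1 := ⟨t - 1, by omega⟩
        have : de x χ0 w2 * conj (de x χ w2) / p = NN p x b χ0 χ / p -
            ((p ^ s : ℕ) : ℂ) * (de x χ0 w1 * conj (de x χ w1)) := by
          rw [hNN]; push_cast; field_simp; ring
        rw [this]
        refine h4.sub (IsIntegral.mul ?_ ((de_int _ _).mul (hconjint _ _)))
        have := isIntegral_algebraMap (R := ℤ) (x := ((p ^ s : ℕ) : ℤ)) (A := ℂ)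
        simpa using this
      have h6 := de_unit_cancel hM hx χ0 w2 hunit (hconjint χ w2) h5
      have h7 := h6.map (Complex.conjAe.toAlgHom.restrictScalars ℤ)
      have : (Complex.conjAe.toAlgHom.restrictScalars ℤ) (conj (de x χ w2) / (p : ℂ)) = de x χ w2 / p := by
        show conj (conj (de x χ w2) / (p : ℂ)) = _
        rw [map_div₀, Complex.conj_conj, Complex.conj_natCast]
      rw [this] at h7
      exact h7)
    rw [e, h2] at k1
    simp only [Finset.sum_const, smul_eq_mul] at k1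
    have k1' : S1.card * p ^ 2 ≤ p ^ blockDefect p b := by exact_mod_cast k1
    -- conclusion
    have hpow : ((p ^ t : ℕ) : ℤ) * (S0.card : ℤ) ≤ ((p ^ blockDefect p b : ℕ) : ℤ) := by
      have : ((p ^ t : ℕ) : ℤ) * (S0.card : ℤ) ≤ ((p ^ t : ℕ) : ℤ) * ip w1 w1 :=
        mul_le_mul_of_nonneg_left (by exact_mod_cast k0) (by positivity)
      refine this.trans (le_of_eq ?_)
      push_cast
      exact h1
    have hpow' : p ^ t * S0.card ≤ p ^ blockDefect p b := by exact_mod_cast hpow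
    have h8 : p * S0.card ≤ p ^ blockDefect p b := by
      refine le_trans ?_ hpow'
      exact Nat.mul_le_mul_right _ (Nat.le_self_pow ht.ne' p)
    have hp2 := hp.out.two_le
    rw [← hcard]
    nlinarith [Nat.mul_le_mul_right S0.card hp2, Nat.mul_le_mul_left S1.card (Nat.mul_le_mul hp2 hp2),
      sq p]

theorem of_DB {b : Set (IrrCharacter (Subgroup.centralizer ({x} : Set G)))}
    {B : Set (IrrCharacter G)}
    {w1 w2 u1 u2 : IrrCharacter (Subgroup.centralizer ({x} : Set G)) → ℤ}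
    (h : DB p b w1 w2 u1 u2) (hM : IsPModular p M) (hx : ∃ k : ℕ, orderOf x = p ^ k)
    (hind : IsInducedBlock M (Subgroup.centralizer ({x} : Set G)) b B)
    (hmaj : blockDefect p b = blockDefect p B) (hb : IsPBlock M b) (hB : IsPBlock M B)
    (S : Finset (IrrCharacter G)) (hS : ∀ χ ∈ S, χ ∈ B) :
    S.card ≤ p ^ blockDefect p b := by
  classical
  obtain ⟨v1, v2, t1, t2, hv, g0, g1, g2⟩ := h.reduce
  rcases g0.lt_or_eq with g0 | g0
  · exact case_pos hv hM hx hind hmaj hb S hS g0 g1 g2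
  · have g0 : ip v1 v2 = 0 := g0.symm
    obtain ⟨d0, d1, d2, d3⟩ := hv.disc hM hb
    rw [g0] at d0 d1 d3
    have ha := ip_self_pos hv.ne1
    have hc := ip_self_pos hv.ne2
    have e : ∀ w : IrrCharacter (Subgroup.centralizer ({x} : Set G)) → ℤ, ∑ φ, w φ ^ 2 = ip w w :=
      fun w => Finset.sum_congr rfl fun φ _ => sq _
    -- powers of p
    obtain ⟨A, hA⟩ : ∃ A : ℕ, ip v1 v1 = A := ⟨(ip v1 v1).toNat, by omega⟩
    obtain ⟨C, hC⟩ : ∃ C : ℕ, ip v2 v2 = C := ⟨(ip v2 v2).toNat, by omega⟩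
    rw [hA, hC] at d1 d3
    rw [hA] at ha
    rw [hC] at hc
    have hAd : A ∣ p ^ blockDefect p b := by
      have : (A * C : ℤ) ∣ p ^ blockDefect p b * C := by simpa using d3
      have := (mul_dvd_mul_iff_right (by omega : (C : ℤ) ≠ 0)).1 this
      exact_mod_cast this
    have hCd : C ∣ p ^ blockDefect p b := by
      have : (A * C : ℤ) ∣ p ^ blockDefect p b * A := by simpa using d1
      rw [mul_comm (A : ℤ) C] at this
      have := (mul_dvd_mul_iff_right (by omega : (A : ℤ) ≠ 0)).1 this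
      exact_mod_cast this
    obtain ⟨s, hs, rfl⟩ := (Nat.dvd_prime_pow hp.out).1 hAd
    obtain ⟨r, hr, rfl⟩ := (Nat.dvd_prime_pow hp.out).1 hCd
    by_cases hr' : r = blockDefect p b
    · refine case_orth hv hM hx hind hmaj hb hB S hS g0 (t := blockDefect p b - s) ?_ ?_
      · rw [hA]; push_cast; rw [← pow_add]; congr 1; omega
      · rw [hC, hr']; push_cast; rfl
    · by_cases hs' : s = blockDefect p b
      · refine case_orth hv.swap hM hx hind hmaj hb hB S hS (by rw [ip_comm]; exact g0)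
          (t := blockDefect p b - r) ?_ ?_
        · rw [hC]; push_cast; rw [← pow_add]; congr 1; omega
        · rw [hA, hs']; push_cast; rfl
      · have key := tv (p := p) (x := x) hx (b := b) (Finset.univ : Finset (Fin 2)) ![v1, v2] (by
          intro i _
          fin_cases i
          · exact hv.m1
          · exact hv.m2) S 1 (by
          intro χ hχ
          rw [Nat.one_le_iff_ne_zero, Finset.card_ne_zero]
          by_cases e1 : de x χ v1 = 0
          · exact ⟨1, Finset.mem_filter.2 ⟨Finset.mem_univ _, fun e2 =>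
              not_both hv hM hx hind hmaj (hS χ hχ) e1 e2⟩⟩
          · exact ⟨0, Finset.mem_filter.2 ⟨Finset.mem_univ _, e1⟩⟩)
        rw [Fin.sum_univ_two] at key
        simp only [e, Matrix.cons_val_zero, Matrix.cons_val_one, Matrix.cons_val] at key
        rw [hA, hC] at key
        have k' : S.card ≤ p ^ s + p ^ r := by
          have : ((1 * S.card : ℕ) : ℤ) ≤ ((p ^ s + p ^ r : ℕ) : ℤ) := by
            push_cast at key ⊢; exact key
          have := Int.ofNat_le.1 this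
          omega
        refine k'.trans ?_
        obtain ⟨d, hd⟩ : ∃ d, blockDefect p b = d + 1 := ⟨blockDefect p b - 1, by omega⟩
        rw [hd]
        have h1 : p ^ s ≤ p ^ d := Nat.pow_le_pow_right hp.out.pos (by omega)
        have h2 : p ^ r ≤ p ^ d := Nat.pow_le_pow_right hp.out.pos (by omega)
        rw [pow_succ]
        have := Nat.mul_le_mul_left (p ^ d) hp.out.two_le
        omega

/-- main result -/
theorem card_le (hM : IsPModular p M) (hx : ∃ k : ℕ, orderOf x = p ^ k)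
    {b : Set (IrrCharacter (Subgroup.centralizer ({x} : Set G)))} {B : Set (IrrCharacter G)}
    (hind : IsInducedBlock M (Subgroup.centralizer ({x} : Set G)) b B)
    (hmaj : blockDefect p b = blockDefect p B) (hb : IsPBlock M b) (hB : IsPBlock M B)
    (hl : blockRank p b ≤ 2) : Nat.card B ≤ p ^ blockDefect p B := by
  classical
  have hpos := AbSec2.rank_pos hM hb
  rcases (show blockRank p b = 1 ∨ blockRank p b = 2 by omega) with h1 | h2
  · have := card_le_major hM hx hind hmaj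
    rwa [h1, mul_one] at this
  · obtain ⟨n, β, u, g1, g2, g3⟩ := exists_basis p b
    have hn := rank_eq_basis hM hb g1 g2 g3
    rw [h2] at hn
    subst hn
    have hDB : DB p b (β 0) (β 1) (u 0) (u 1) :=
      { m1 := g1 0
        m2 := g1 1
        d11 := by rw [g2]; rfl
        d12 := by rw [g2]; rfl
        d21 := by rw [g2]; rfl
        d22 := by rw [g2]; rfl
        sp := fun w hw => by
          conv_lhs => rw [g3 w hw]
          rw [Fin.sum_univ_two] }
    have := of_DB hDB hM hx hind hmaj hb hB (Finset.univ.filter (· ∈ B))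
      (fun χ hχ => (Finset.mem_filter.1 hχ).2)
    rw [← hmaj]
    refine le_trans (le_of_eq ?_) this
    rw [Nat.card_eq_fintype_card, Fintype.card_subtype]

end

end Cfsg.Agent.H25.TV4
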