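import Cfsg.Agent.H25_Rk
import Cfsg.Agent.H27_FusAb

/-! Watanabe's theorem, part 1: Fourier analysis and traces. -/

set_option autoImplicit false
set_option linter.unusedSectionVars false

open scoped ComplexConjugate commutatorElement

namespace Cfsg.Agent.H25.Wat

open Cfsg Cfsg.Agent.H3 Cfsg.Agent.H3.CharBasic Cfsg.Agent.H3.CharIrr Cfsg.Agent.H3.CharComplete
  Cfsg.Agent.H25.Brauer Cfsg.Agent.H10.BlockSMT2
  Cfsg.Agent.H25.STk Cfsg.Agent.H25.STl Cfsg.Agent.H25.STm Cfsg.Agent.H25.STn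
  Cfsg.Agent.H25.STo Cfsg.Agent.H25.STp Cfsg.Agent.H25.STq Cfsg.Agent.H25.STr
  Cfsg.Agent.H25.KG Cfsg.Agent.H25.Red Cfsg.Agent.H25.BPTr Cfsg.Agent.H25.BPMain Cfsg.Agent.H25.BPDef
  Cfsg.Agent.H25.Fus Cfsg.Agent.H25.Nilp Cfsg.Agent.H25.NilpAb Cfsg.Agent.H25.ExtFMT Cfsg.Agent.H25.FMT
  Cfsg.Agent.H25.Up Cfsg.Agent.H25.Rel Cfsg.Agent.H25.Rk Cfsg.Agent.H25.Cov2
  Cfsg.Agent.H25.AbSec Cfsg.Agent.H25.AbSec2 Cfsg.Agent.H25.Sub

section fourier
variable {Q : Type*} [Group Q] [Finite Q] {N : Subgroup Q}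

theorem exists_Lam_ne (hN : commutator Q ≤ N) {z : Q} (hz : z ∉ N) : ∃ l ∈ Lam N, l z ≠ 1 := by
  haveI hn : N.Normal := Subgroup.Normal.of_commutator_le _ hN
  letI : CommGroup (Q ⧸ N) :=
    { (inferInstance : Group (Q ⧸ N)) with
      mul_comm := by
        intro a b
        obtain ⟨a, rfl⟩ := QuotientGroup.mk_surjective a
        obtain ⟨b, rfl⟩ := QuotientGroup.mk_surjective b
        show ((a * b : Q) : Q ⧸ N) = ((b * a : Q) : Q ⧸ N)
        rw [QuotientGroup.eq]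
        apply hN
        have : (a * b)⁻¹ * (b * a) = ⁅b⁻¹, a⁻¹⁆ := by rw [commutatorElement_def]; group
        rw [this]
        exact Subgroup.commutator_mem_commutator (Subgroup.mem_top _) (Subgroup.mem_top _) }
  have h1 : ((z : Q) : Q ⧸ N) ≠ 1 := fun h => hz ((QuotientGroup.eq_one_iff z).1 h)
  obtain ⟨φ, hφ⟩ := CommGroup.exists_apply_ne_one_of_hasEnoughRootsOfUnity (Q ⧸ N) ℂ h1
  refine ⟨φ.comp (QuotientGroup.mk' N), fun x hx => ?_, hφ⟩
  rw [MonoidHom.mem_ker, MonoidHom.comp_apply, QuotientGroup.mk'_apply, (QuotientGroup.eq_one_iff x).2 hx, map_one]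

theorem fin_Lam' (hN : commutator Q ≤ N) : Finite (Lam N) := by
  apply Nat.finite_of_card_ne_zero
  rw [card_Lam _ hN]
  exact Subgroup.index_ne_zero_of_finite

open Classical in
theorem sum_Lam (hN : commutator Q ≤ N) [Fintype (Lam N)] (z : Q) :
    ∑ l : Lam N, ((l.1 z : ℂˣ) : ℂ) = if z ∈ N then (Nat.card (Lam N) : ℂ) else 0 := by
  split_ifs with hz
  · rw [Finset.sum_congr rfl (g := fun _ => (1 : ℂ)), Finset.sum_const, Finset.card_univ, nsmul_eq_mul, mul_one,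
      Nat.card_eq_fintype_card]
    intro l _
    rw [mem_Lam.1 l.2 z hz, Units.val_one]
  · obtain ⟨l0, hl0, hne⟩ := exists_Lam_ne hN hz
    have h1 : ((l0 z : ℂˣ) : ℂ) * ∑ l : Lam N, ((l.1 z : ℂˣ) : ℂ) = ∑ l : Lam N, ((l.1 z : ℂˣ) : ℂ) := by
      rw [Finset.mul_sum]
      refine Eq.trans ?_ (Equiv.sum_comp (Equiv.mulLeft (⟨l0, hl0⟩ : Lam N)) (fun l : Lam N => ((l.1 z : ℂˣ) : ℂ)))
      refine Finset.sum_congr rfl fun l _ => ?_
      show _ = (((l0 * l.1) z : ℂˣ) : ℂ)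
      rw [MonoidHom.mul_apply, Units.val_mul]
    have h2 : (((l0 z : ℂˣ) : ℂ) - 1) * ∑ l : Lam N, ((l.1 z : ℂˣ) : ℂ) = 0 := by linear_combination h1
    refine (mul_eq_zero.1 h2).resolve_left ?_
    intro h
    exact hne (Units.ext (by rw [Units.val_one]; exact sub_eq_zero.1 h))

open Classical in
theorem fourier [Fintype Q] (hN : commutator Q ≤ N) (g : Q → ℂ)
    (h : ∀ l ∈ Lam N, l ≠ 1 → ∑ y, ((l y : ℂˣ) : ℂ) * g y = 0) (x : Q) :
    (Nat.card (Lam N) : ℂ) * ∑ y : Q, (if x⁻¹ * y ∈ N then g y else 0) = ∑ y, g y := by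
  haveI := fin_Lam' hN
  haveI : Fintype (Lam N) := Fintype.ofFinite _
  have h1 : ∑ l : Lam N, ((l.1 x⁻¹ : ℂˣ) : ℂ) * ∑ y, ((l.1 y : ℂˣ) : ℂ) * g y = ∑ y, g y := by
    rw [Finset.sum_eq_single_of_mem (1 : Lam N) (Finset.mem_univ _)]
    · simp
    · intro l _ hl
      rw [h l.1 l.2 (fun h' => hl (Subtype.ext h')), mul_zero]
  rw [← h1, Finset.mul_sum]
  simp_rw [Finset.mul_sum]
  rw [Finset.sum_comm]
  refine Finset.sum_congr rfl fun y _ => ?_
  have h2 : ∀ l : Lam N, ((l.1 x⁻¹ : ℂˣ) : ℂ) * (((l.1 y : ℂˣ) : ℂ) * g y) = ((l.1 (x⁻¹ * y) : ℂˣ) : ℂ) * g y := by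
    intro l
    rw [map_mul, Units.val_mul]; ring
  rw [Finset.sum_congr rfl fun l _ => h2 l, ← Finset.sum_mul, sum_Lam hN]
  split_ifs <;> ring

end fourier

variable {p : ℕ} {M : Ideal AlgInt} {G : Type*} [Group G] [Fintype G] [hMax : M.IsMaximal]
  [hp : Fact p.Prime] [hch : CharP (KM M) p] {P : Subgroup G} {E : MonoidAlgebra (KM M) G}
  {B : Set (IrrCharacter G)}

theorem trace_st (hM : IsPModular p M) (hB : IsPBlock M B) (hP : BP p (epG M B) P E) (htop : KG.Top p P E)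
    [Fintype (IrrCharacter G)] {η : G → ℂ} (hη : Stab p P E η) :
    ∑ χ : IrrCharacter G, classInner (st p P E η (χ : G → ℂ)) (χ : G → ℂ) =
      ∑ s ∈ asecs p M B, ccs p P E η s * (blockRank p s.2 : ℂ) := by
  rw [Finset.sum_congr rfl fun χ _ => inner_secs hM hB hP htop hη χ χ, Finset.sum_comm]
  refine Finset.sum_congr rfl fun s hs => ?_
  rw [← Finset.mul_sum]
  congr 1
  obtain ⟨u, b⟩ := s
  obtain ⟨h1, h2⟩ := mem_asecs.1 hs
  simp only at h1 h2
  letI : Fintype (Subgroup.centralizer ({u} : Set G)) := Fintype.ofFinite _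
  haveI : Fintype (IrrCharacter (Subgroup.centralizer ({u} : Set G))) := Fintype.ofFinite _
  exact mm_trace hM (reps_p p h1) h2.1

theorem trace_zero (hM : IsPModular p M) (hB : IsPBlock M B) (hP : BP p (epG M B) P E) (htop : KG.Top p P E)
    (hab : ∀ x ∈ P, ∀ y ∈ P, x * y = y * x) {F : FusionSystem P} (hF : IsBF p E F)
    [Fintype (IrrCharacter G)] {l : P →* ℂˣ} (hl : l ∈ Lam (F.focalSubgroup.subgroupOf P)) (hne : l ≠ 1) :
    ∑ χ : IrrCharacter G, classInner (st p P E (ex l) (χ : G → ℂ)) (χ : G → ℂ) = 0 := by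
  classical
  refine Finset.sum_eq_zero fun χ _ => ?_
  by_cases hχ : χ ∈ B
  · obtain ⟨ψ, hψ, he, -⟩ := act_ex hM hB hP htop hF hl hχ
    rw [he, ci_irr ψ.2 χ.2, if_neg]
    intro h
    apply hne
    ext ⟨u, hu⟩
    rw [fix_central hM hB hP htop hF hl hχ (he.trans h) hu (fun d hd => hab d hd u hu)]
    rfl
  · rw [st_notMem hM hB hP htop _ hχ, ci_zero_left]

theorem trace_one (hM : IsPModular p M) (hB : IsPBlock M B) (hP : BP p (epG M B) P E) (htop : KG.Top p P E)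
    [Fintype (IrrCharacter G)] :
    ∑ χ : IrrCharacter G, classInner (st p P E (fun _ => 1) (χ : G → ℂ)) (χ : G → ℂ) = (Nat.card B : ℂ) := by
  classical
  have h1 : ∀ χ : IrrCharacter G, classInner (st p P E (fun _ => 1) (χ : G → ℂ)) (χ : G → ℂ) = if χ ∈ B then 1 else 0 := by
    intro χ
    split_ifs with h
    · rw [st_one hM hB hP htop h, ci_irr χ.2 χ.2, if_pos rfl]
    · rw [st_notMem hM hB hP htop _ h, ci_zero_left]
  rw [Finset.sum_congr rfl fun χ _ => h1 χ, ← Finset.sum_filter, Finset.sum_const, nsmul_eq_mul, mul_one,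
    Nat.card_eq_fintype_card, Fintype.card_subtype]

section below

open Classical in
/-- the block below `(P, E)` at `R` -/
noncomputable def fb (p : ℕ) (P : Subgroup G) (E : MonoidAlgebra (KM M) G) (R : Subgroup G) : MonoidAlgebra (KM M) G :=
  if h : ∃ f, LE p R f P E then h.choose else 0

theorem fb_spec (hP : IsPGroup p P) (hE : IsBlk (Ce P) E) {R : Subgroup G} (hR : R ≤ P) : LE p R (fb p P E R) P E := by
  have h : ∃ f, LE p R f P E := by
    obtain ⟨f, -, h⟩ := le_exists hP hE hR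
    exact ⟨f, h⟩
  unfold fb
  rw [dif_pos h]
  exact h.choose_spec

theorem fb_eq (hP : IsPGroup p P) (hE : IsBlk (Ce P) E) {R : Subgroup G} {f : MonoidAlgebra (KM M) G}
    (h : LE p R f P E) : fb p P E R = f := le_unique hP hE (fb_spec hP hE h.le) h

/-- the number of Brauer characters of the block below `(P, E)` at `R` -/
noncomputable def Lr (p : ℕ) (P : Subgroup G) (E : MonoidAlgebra (KM M) G) (R : Subgroup G) : ℕ :=
  rk p (Ce R) (fb p P E R)

theorem phi_rank (hP : IsPGroup p P) (hE : IsBlk (Ce P) E) {y : G}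
    {s : Σ x : G, Set (IrrCharacter (Subgroup.centralizer ({x} : Set G)))} (hs : IsPBlock M s.2)
    (h : PhiRel M p P E y s) : blockRank p s.2 = Lr p P E (Subgroup.zpowers y) := by
  obtain ⟨x, b⟩ := s
  obtain ⟨g, hg, hle⟩ := h
  simp only at hs hg hle ⊢
  have h1 := isBlk_ep (M := M) hs
  unfold Lr
  rw [fb_eq hP hE hle]
  have h2 : Ce (Subgroup.zpowers y) = cs g⁻¹ (Subgroup.centralizer ({x} : Set G)) := by
    have h3 : g⁻¹ * x * g⁻¹⁻¹ = y := by rw [← hg]; group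
    have h4 := Ce1_cs g⁻¹ x
    rw [h3] at h4
    rw [Ce_zp]
    exact h4
  rw [h2, rk_cs h1, rk_ep hs]

/-- the size of the orbit -/
noncomputable def orb (P : Subgroup G) (E : MonoidAlgebra (KM M) G) (y : G) : ℕ :=
  Nat.card {z : G // ∃ t ∈ Nf P E, t * y * t⁻¹ = z}

theorem orb_pos (P : Subgroup G) (E : MonoidAlgebra (KM M) G) (y : G) : 0 < orb P E y := by
  unfold orb
  haveI : Nonempty {z : G // ∃ t ∈ Nf P E, t * y * t⁻¹ = z} := ⟨⟨y, 1, Subgroup.one_mem _, by group⟩⟩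
  exact Nat.card_pos

theorem orb_fix {a : G} (ha : ∀ t ∈ Nf P E, t * a * t⁻¹ = a) : orb P E a = 1 := by
  unfold orb
  rw [Nat.card_eq_one_iff_unique]
  refine ⟨⟨?_⟩, ⟨⟨a, 1, Subgroup.one_mem _, by group⟩⟩⟩
  rintro ⟨x, t, ht, hx⟩ ⟨y, t', ht', hy⟩
  apply Subtype.ext
  show x = y
  rw [← hx, ← hy, ha t ht, ha t' ht']

theorem orb_mul {a : G} (ha : ∀ t ∈ Nf P E, t * a * t⁻¹ = a) (y : G) : orb P E (a * y) = orb P E y := by
  unfold orb
  have e : ∀ t ∈ Nf P E, t * (a * y) * t⁻¹ = a * (t * y * t⁻¹) := by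
    intro t ht
    calc t * (a * y) * t⁻¹ = (t * a * t⁻¹) * (t * y * t⁻¹) := by group
      _ = _ := by rw [ha t ht]
  refine Nat.card_congr ⟨fun z => ⟨a⁻¹ * z.1, ?_⟩, fun z => ⟨a * z.1, ?_⟩, ?_, ?_⟩
  · obtain ⟨t, ht, hz⟩ := z.2
    exact ⟨t, ht, by rw [← hz, e t ht]; group⟩
  · obtain ⟨t, ht, hz⟩ := z.2
    exact ⟨t, ht, by rw [← hz, e t ht]⟩
  · intro z; apply Subtype.ext; show a * (a⁻¹ * z.1) = z.1; group
  · intro z; apply Subtype.ext; show a⁻¹ * (a * z.1) = z.1; group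

open Classical in
theorem fiber_orb (hM : IsPModular p M) (hP : BP p (epG M B) P E) (htop : KG.Top p P E)
    (hab : ∀ x ∈ P, ∀ y ∈ P, x * y = y * x) {y : G} (hy : y ∈ P)
    {s : Σ x : G, Set (IrrCharacter (Subgroup.centralizer ({x} : Set G)))} (h : PhiRel M p P E y s) :
    (Finset.univ.filter fun z : G => z ∈ P ∧ PhiRel M p P E z s).card = orb P E y := by
  unfold orb
  rw [Nat.card_eq_fintype_card, Fintype.card_subtype]
  congr 1
  ext z
  rw [Finset.mem_filter, Finset.mem_filter]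
  refine and_congr_right fun _ => ?_
  constructor
  · rintro ⟨-, hz⟩
    exact phi_fiber hM hP htop hab h hz
  · rintro ⟨t, ht, rfl⟩
    exact ⟨(Subgroup.mem_normalizer_iff.1 ht.1 y).1 hy, phi_conj ht h⟩

open Classical in
theorem sum_ab (hM : IsPModular p M) (hB : IsPBlock M B) (hP : BP p (epG M B) P E) (htop : KG.Top p P E)
    (hab : ∀ x ∈ P, ∀ y ∈ P, x * y = y * x) {η : G → ℂ} (hη : Stab p P E η) :
    ∑ s ∈ asecs p M B, ccs p P E η s * (blockRank p s.2 : ℂ) =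
      ∑ y : G, if y ∈ P then η y * ((Lr p P E (Subgroup.zpowers y) : ℂ) / (orb P E y : ℂ)) else 0 := by
  have h1 : ∀ s ∈ asecs p M B, ccs p P E η s * (blockRank p s.2 : ℂ) =
      ∑ y : G, if y ∈ P ∧ PhiRel M p P E y s then η y * ((Lr p P E (Subgroup.zpowers y) : ℂ) / (orb P E y : ℂ)) else 0 := by
    intro s hs
    obtain ⟨y, hy, hys⟩ := asec_surj hM hB hP htop hs
    have hsb := (mem_asecs.1 hs).2.1
    rw [← Finset.sum_filter, Finset.sum_congr rfl (g := fun _ => ccs p P E η s * ((blockRank p s.2 : ℂ) / (orb P E y : ℂ))),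
      Finset.sum_const, nsmul_eq_mul, fiber_orb hM hP htop hab hy hys]
    · have : (orb P E y : ℂ) ≠ 0 := by exact_mod_cast (orb_pos P E y).ne'
      field_simp
    · intro z hz
      obtain ⟨-, hz, hzs⟩ := Finset.mem_filter.1 hz
      rw [phi_val hη hzs, phi_rank hP.pg hP.be hsb hzs]
      rw [← fiber_orb hM hP htop hab hz hzs, ← fiber_orb hM hP htop hab hy hys]
  rw [Finset.sum_congr rfl h1, Finset.sum_comm]
  refine Finset.sum_congr rfl fun y _ => ?_
  split_ifs with hy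
  · obtain ⟨s, hs, hys⟩ := asec_exists hM hB hP hy
    rw [Finset.sum_eq_single_of_mem s hs, if_pos ⟨hy, hys⟩]
    intro s' hs' hne
    rw [if_neg]
    rintro ⟨-, h'⟩
    exact hne (asec_unique hP hs' hs hy h' hys)
  · refine Finset.sum_eq_zero fun s _ => ?_
    rw [if_neg (fun h => hy h.1)]

end below

end Cfsg.Agent.H25.Wat
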