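import Cfsg.Agent.H25_Wat
import Cfsg.Agent.H22_Real
import Cfsg.Agent.H3_DefectZero

/-! Characters of defect zero and Whittaker multiplicities. -/

set_option autoImplicit false
set_option linter.unusedSectionVars false

open scoped ComplexConjugate

namespace Cfsg.Agent.H25.Whi

open Cfsg Cfsg.Agent.H3 Cfsg.Agent.H3.CharBasic Cfsg.Agent.H3.CharIrr Cfsg.Agent.H3.CharComplete
  Cfsg.Agent.H3.CharInd Cfsg.Agent.H25.STo Cfsg.Agent.H25.Wat

variable {G : Type*} [Group G] [Fintype G] {p : ℕ} [hp : Fact p.Prime] {U B : Subgroup G}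

/-- irreducible characters of defect zero -/
def DZ (p : ℕ) (χ : G → ℂ) : Prop :=
  IsIrrCharacter G χ ∧ ∃ d : ℕ, χ 1 = ((p ^ (Nat.card G).factorization p * d : ℕ) : ℂ)

/-- the data needed for uniqueness -/
structure WS (p : ℕ) (U B : Subgroup G) (ψ : U →* ℂˣ) (g0 : G) : Prop where
  le : U ≤ B
  card : Nat.card U = p ^ (Nat.card G).factorization p
  pdvd : p ∣ Nat.card G
  comm : commutator B ≤ U.subgroupOf B
  big : ∀ g : G, (∃ x, ∃ hx : x ∈ U, g⁻¹ * x * g ∈ U ∧ ψ ⟨x, hx⟩ ≠ 1) ∨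
    ((∃ u ∈ U, ∃ b ∈ B, g = u * g0 * b) ∧ ∀ x ∈ U, g⁻¹ * x * g ∈ U → x = 1)

theorem vanish (hpG : p ∣ Nat.card G) {χ : G → ℂ} (hχ : DZ p χ) {x : G} (hx : p ∣ orderOf x) : χ x = 0 := by
  obtain ⟨hi, d, hd⟩ := hχ
  have h0 : Nat.card G ≠ 0 := Nat.card_pos.ne'
  have h1 : 0 < (Nat.card G).factorization p := hp.out.factorization_pos_of_dvd h0 hpG
  exact DefectZero.vanish (p := p) (m := p ^ (Nat.card G).factorization p)
    (n := Nat.card G / p ^ (Nat.card G).factorization p) (d := d) hp.out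
    (Nat.ordProj_mul_ordCompl_eq_self _ _).symm ⟨(Nat.card G).factorization p - 1, by rw [Nat.sub_add_cancel h1]⟩
    (Nat.not_dvd_ordCompl hp.out h0) hi hd hx

variable {ψ : U →* ℂˣ} {g0 : G}

theorem WS.pg (h : WS p U B ψ g0) : IsPGroup p U := IsPGroup.of_card h.card

theorem WS.normal (h : WS p U B ψ g0) : (U.subgroupOf B).Normal := Subgroup.Normal.of_commutator_le _ h.comm

theorem WS.cop (h : WS p U B ψ g0) : ¬ p ∣ (U.subgroupOf B).index := by
  intro hd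
  have h0 : Nat.card G ≠ 0 := Nat.card_pos.ne'
  have h1 : U.index = Nat.card G / p ^ (Nat.card G).factorization p := by
    have h2 := U.card_mul_index
    rw [h.card] at h2
    exact (Nat.div_eq_of_eq_mul_right (pow_pos hp.out.pos _) h2.symm).symm
  have h3 : (U.subgroupOf B).index ∣ U.index := by
    rw [← Subgroup.relIndex_mul_index h.le]
    exact dvd_mul_right _ _
  exact Nat.not_dvd_ordCompl hp.out h0 (h1 ▸ hd.trans h3)

/-- `p`-elements of `B` lie in `U` -/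
theorem WS.mem (h : WS p U B ψ g0) {x : G} (hx : x ∈ B) (hp' : ∃ k : ℕ, orderOf x = p ^ k) : x ∈ U := by
  haveI := h.normal
  obtain ⟨k, hk⟩ := hp'
  have h1 : (QuotientGroup.mk' (U.subgroupOf B)) ⟨x, hx⟩ = 1 := by
    rw [← orderOf_eq_one_iff]
    have h2 : orderOf ((QuotientGroup.mk' (U.subgroupOf B)) ⟨x, hx⟩) ∣ p ^ k := by
      refine (orderOf_map_dvd _ _).trans ?_
      rw [Subgroup.orderOf_mk, hk]
    have h3 : orderOf ((QuotientGroup.mk' (U.subgroupOf B)) ⟨x, hx⟩) ∣ (U.subgroupOf B).index := by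
      rw [Subgroup.index_eq_card]
      exact orderOf_dvd_natCard _
    obtain ⟨j, hj, hj'⟩ := (Nat.dvd_prime_pow hp.out).1 h2
    rcases Nat.eq_zero_or_pos j with rfl | hpos
    · rw [hj', pow_zero]
    · exact absurd ((dvd_pow_self p hpos.ne').trans (hj' ▸ h3)) h.cop
  have h4 := (QuotientGroup.eq_one_iff _).1 h1
  exact Subgroup.mem_subgroupOf.1 h4

open Classical in
/-- the Whittaker multiplicity of a principal series character is at most one -/
theorem WS.ind_le (h : WS p U B ψ g0) [Fintype U] [Fintype B] {l : B →* ℂˣ} (hl : l ∈ Lam (U.subgroupOf B)) :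
    ∃ n : ℕ, n ≤ Nat.card U * Nat.card B ∧
      classInner (fun u : U => indFun B (fun b => ((l b : ℂˣ) : ℂ)) (u : G)) (fun u => ((ψ u : ℂˣ) : ℂ)) =
        (n : ℂ) / ((Nat.card U : ℂ) * (Nat.card B : ℂ)) := by
  have hU0 : (Nat.card U : ℂ) ≠ 0 := by exact_mod_cast Nat.card_pos.ne'
  have hB0 : (Nat.card B : ℂ) ≠ 0 := by exact_mod_cast Nat.card_pos.ne'
  -- values of the extension
  have hv : ∀ (u : U) (g : G), extendByZero B (fun b => ((l b : ℂˣ) : ℂ)) (g⁻¹ * u * g) = if g⁻¹ * u * g ∈ U then 1 else 0 := by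
    intro u g
    by_cases hB : g⁻¹ * u * g ∈ B
    · have h1 : g⁻¹ * u * g ∈ U := by
        refine h.mem hB ?_
        obtain ⟨k, hk⟩ := (IsPGroup.iff_orderOf.1 h.pg) u
        refine ⟨k, ?_⟩
        have h2 : orderOf (g⁻¹ * (u : G) * g) = orderOf (u : G) := by
          have := (MulAut.conj g⁻¹).orderOf_eq (u : G)
          rw [MulAut.conj_apply, inv_inv] at this
          exact this
        rw [h2, Subgroup.orderOf_coe, hk]
      rw [ext_mem B _ hB, if_pos h1, mem_Lam.1 hl _ (Subgroup.mem_subgroupOf.2 h1), Units.val_one]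
    · rw [ext_not_mem B _ hB, if_neg fun h1 => hB (h.le h1)]
  let A : Finset G := Finset.univ.filter fun g => ¬ ∃ x, ∃ hx : x ∈ U, g⁻¹ * x * g ∈ U ∧ ψ ⟨x, hx⟩ ≠ 1
  refine ⟨A.card, ?_, ?_⟩
  · have h1 : A ⊆ Finset.univ.image (fun z : U × B => (z.1 : G) * g0 * (z.2 : G)) := by
      intro g hg
      obtain ⟨⟨u, hu, b, hb, e⟩, -⟩ := (h.big g).resolve_left (Finset.mem_filter.1 hg).2
      exact Finset.mem_image.2 ⟨(⟨u, hu⟩, ⟨b, hb⟩), Finset.mem_univ _, e.symm⟩
    refine (Finset.card_le_card h1).trans (Finset.card_image_le.trans ?_)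
    rw [Finset.card_univ, Fintype.card_prod, Nat.card_eq_fintype_card, Nat.card_eq_fintype_card]
  · have hS : ∀ g : G, ∑ u : U, (if g⁻¹ * (u : G) * g ∈ U then (1 : ℂ) else 0) * conj ((ψ u : ℂˣ) : ℂ) = if g ∈ A then 1 else 0 := by
      intro g
      by_cases hg : g ∈ A
      · rw [if_pos hg]
        obtain ⟨-, h2⟩ := (h.big g).resolve_left (Finset.mem_filter.1 hg).2
        rw [Finset.sum_eq_single_of_mem (1 : U) (Finset.mem_univ _)]
        · rw [if_pos (by simp [U.one_mem])]; simp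
        · intro u _ hu
          rw [if_neg, zero_mul]
          intro h3
          exact hu (Subtype.ext (h2 u u.2 h3))
      · rw [if_neg hg]
        have h1 : ∃ x, ∃ hx : x ∈ U, g⁻¹ * x * g ∈ U ∧ ψ ⟨x, hx⟩ ≠ 1 := by
          by_contra h2
          exact hg (Finset.mem_filter.2 ⟨Finset.mem_univ _, h2⟩)
        obtain ⟨x, hx, hxg, hne⟩ := h1
        set S := ∑ u : U, (if g⁻¹ * (u : G) * g ∈ U then (1 : ℂ) else 0) * conj ((ψ u : ℂˣ) : ℂ) with hSdef
        have h3 : conj ((ψ ⟨x, hx⟩ : ℂˣ) : ℂ) * S = S := by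
          rw [hSdef, Finset.mul_sum]
          refine Eq.trans ?_ (Equiv.sum_comp (Equiv.mulLeft (⟨x, hx⟩ : U)) (fun u : U => (if g⁻¹ * (u : G) * g ∈ U then (1 : ℂ) else 0) * conj ((ψ u : ℂˣ) : ℂ)))
          refine Finset.sum_congr rfl fun u _ => ?_
          rw [Equiv.coe_mulLeft, map_mul, Units.val_mul, map_mul]
          have h4 : g⁻¹ * ((⟨x, hx⟩ * u : U) : G) * g ∈ U ↔ g⁻¹ * (u : G) * g ∈ U := by
            have e : g⁻¹ * ((⟨x, hx⟩ * u : U) : G) * g = (g⁻¹ * x * g) * (g⁻¹ * (u : G) * g) := by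
              rw [Subgroup.coe_mul]; group
            rw [e]
            exact U.mul_mem_cancel_left hxg
          simp only [h4]
          ring
        have h5 : (conj ((ψ ⟨x, hx⟩ : ℂˣ) : ℂ) - 1) * S = 0 := by linear_combination h3
        refine (mul_eq_zero.1 h5).resolve_left ?_
        intro h6
        apply hne
        have h7 : conj ((ψ ⟨x, hx⟩ : ℂˣ) : ℂ) = 1 := sub_eq_zero.1 h6
        have h8 : ((ψ ⟨x, hx⟩ : ℂˣ) : ℂ) = 1 := by
          have := congrArg conj h7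
          rwa [Complex.conj_conj, map_one] at this
        exact Units.ext h8
    unfold classInner
    have h9 : ∀ u : U, indFun B (fun b => ((l b : ℂˣ) : ℂ)) (u : G) * conj ((ψ u : ℂˣ) : ℂ) =
        (Nat.card B : ℂ)⁻¹ * ∑ g : G, (if g⁻¹ * (u : G) * g ∈ U then (1 : ℂ) else 0) * conj ((ψ u : ℂˣ) : ℂ) := by
      intro u
      unfold indFun
      rw [Finset.sum_congr rfl fun g _ => hv u g, mul_assoc, Finset.sum_mul]
    rw [Finset.sum_congr rfl fun u _ => h9 u, ← Finset.mul_sum, Finset.sum_comm, Finset.sum_congr rfl fun g _ => hS g]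
    rw [Finset.sum_ite_mem, Finset.univ_inter, Finset.sum_const, nsmul_eq_mul, mul_one]
    field_simp

/-- restriction of defect zero characters to `U` -/
theorem WS.res_U (h : WS p U B ψ g0) {χ : G → ℂ} (hχ : DZ p χ) (l : U →* ℂˣ) [Fintype U] :
    classInner (fun u : U => χ (u : G)) (fun u => ((l u : ℂˣ) : ℂ)) = χ 1 / (Nat.card U : ℂ) := by
  unfold classInner
  rw [Finset.sum_eq_single_of_mem (1 : U) (Finset.mem_univ _)]
  · simp only [map_one, Units.val_one, mul_one, Subgroup.coe_one]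
    rw [inv_mul_eq_div]
  · intro u _ hu
    beta_reduce
    rw [vanish h.pdvd hχ, zero_mul]
    obtain ⟨k, hk⟩ := (IsPGroup.iff_orderOf.1 h.pg) u
    rw [Subgroup.orderOf_coe, hk]
    refine dvd_pow_self p ?_
    rintro rfl
    rw [pow_zero, orderOf_eq_one_iff] at hk
    exact hu hk

open Classical in
theorem WS.sum_conj (h : WS p U B ψ g0) [Fintype (Lam (U.subgroupOf B))] (z : B) :
    ∑ l : Lam (U.subgroupOf B), conj ((l.1 z : ℂˣ) : ℂ) = if (z : G) ∈ U then (Nat.card (Lam (U.subgroupOf B)) : ℂ) else 0 := by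
  have h1 : ∀ l : Lam (U.subgroupOf B), conj ((l.1 z : ℂˣ) : ℂ) = ((l.1 z⁻¹ : ℂˣ) : ℂ) := by
    intro l
    have h2 : ((l.1 z : ℂˣ) : ℂ) ^ (Nat.card B) = 1 := by
      rw [← Units.val_pow_eq_pow_val, ← map_pow, pow_card_eq_one', map_one, Units.val_one]
    rw [← inv_eq_conj_of_pow Nat.card_pos.ne' h2, map_inv, Units.val_inv_eq_inv_val]
  rw [Finset.sum_congr rfl fun l _ => h1 l, sum_Lam h.comm]
  simp only [Subgroup.mem_subgroupOf, Subgroup.coe_inv, inv_mem_iff]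

theorem WS.card_Lam (h : WS p U B ψ g0) : (Nat.card (Lam (U.subgroupOf B)) : ℂ) * (Nat.card U : ℂ) = (Nat.card B : ℂ) := by
  rw [STo.card_Lam _ h.comm]
  have h1 := (U.subgroupOf B).card_mul_index
  rw [Nat.card_congr (Subgroup.subgroupOfEquivOfLe h.le).toEquiv] at h1
  rw [← h1]; push_cast; ring

/-- multiplicity of `λ` in the restriction to `B` -/
noncomputable def mB (B : Subgroup G) [Fintype B] (χ : G → ℂ) (l : B →* ℂˣ) : ℂ :=
  classInner (fun b : B => χ (b : G)) (fun b => ((l b : ℂˣ) : ℂ))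

open Classical in
theorem WS.sum_mB (h : WS p U B ψ g0) [Fintype B] [Fintype U] [Fintype (Lam (U.subgroupOf B))] (χ : G → ℂ) :
    ∑ l : Lam (U.subgroupOf B), mB B χ l.1 = classInner (fun u : U => χ (u : G)) (fun _ => 1) := by
  unfold mB classInner
  rw [← Finset.mul_sum, Finset.sum_comm]
  have h1 : ∀ b : B, ∑ l : Lam (U.subgroupOf B), χ (b : G) * conj ((l.1 b : ℂˣ) : ℂ) =
      if (b : G) ∈ U then (Nat.card (Lam (U.subgroupOf B)) : ℂ) * χ (b : G) else 0 := by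
    intro b
    rw [← Finset.mul_sum, h.sum_conj]
    split_ifs <;> ring
  rw [Finset.sum_congr rfl fun b _ => h1 b, ← Finset.sum_filter, ← Finset.mul_sum]
  have h2 : ∑ b ∈ Finset.univ.filter (fun b : B => (b : G) ∈ U), χ (b : G) = ∑ u : U, χ (u : G) := by
    symm
    refine Finset.sum_bij (fun (u : U) _ => (⟨u, h.le u.2⟩ : B)) (fun u _ => Finset.mem_filter.2 ⟨Finset.mem_univ _, u.2⟩)
      (fun a _ b _ e => Subtype.ext (congrArg (fun z : B => (z : G)) e)) (fun b hb => ?_) (fun _ _ => rfl)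
    exact ⟨⟨b, (Finset.mem_filter.1 hb).2⟩, Finset.mem_univ _, rfl⟩
  rw [h2]
  simp only [map_one, mul_one]
  have h3 := h.card_Lam
  have h4 : (Nat.card U : ℂ) ≠ 0 := by exact_mod_cast Nat.card_pos.ne'
  have h5 : (Nat.card B : ℂ) ≠ 0 := by exact_mod_cast Nat.card_pos.ne'
  rw [← mul_assoc]
  congr 1
  field_simp
  linear_combination h3

theorem hom_conj {K : Type*} [Group K] [Finite K] (l : K →* ℂˣ) (z : K) : conj ((l z : ℂˣ) : ℂ) = ((l z⁻¹ : ℂˣ) : ℂ) := by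
  have h2 : ((l z : ℂˣ) : ℂ) ^ (Nat.card K) = 1 := by
    rw [← Units.val_pow_eq_pow_val, ← map_pow, pow_card_eq_one', map_one, Units.val_one]
  rw [← inv_eq_conj_of_pow Nat.card_pos.ne' h2, map_inv, Units.val_inv_eq_inv_val]

open Classical in
/-- Fourier inversion -/
theorem WS.inversion (h : WS p U B ψ g0) [Fintype B] [Fintype U] [Fintype (Lam (U.subgroupOf B))] (χ : G → ℂ) (t : B) :
    (Nat.card U : ℂ) * ∑ l : Lam (U.subgroupOf B), mB B χ l.1 * ((l.1 t : ℂˣ) : ℂ) = ∑ u : U, χ ((t : G) * u) := by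
  unfold mB classInner
  have h1 : ∀ l : Lam (U.subgroupOf B), ((Nat.card B : ℂ)⁻¹ * ∑ b : B, χ (b : G) * conj ((l.1 b : ℂˣ) : ℂ)) * ((l.1 t : ℂˣ) : ℂ) =
      (Nat.card B : ℂ)⁻¹ * ∑ b : B, χ (b : G) * conj ((l.1 (t⁻¹ * b) : ℂˣ) : ℂ) := by
    intro l
    rw [mul_assoc, Finset.sum_mul]
    congr 1
    refine Finset.sum_congr rfl fun b _ => ?_
    rw [hom_conj, hom_conj, mul_inv_rev, inv_inv, map_mul, Units.val_mul, mul_assoc]
  rw [Finset.sum_congr rfl fun l _ => h1 l, ← Finset.mul_sum, Finset.sum_comm]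
  have h2 : ∀ b : B, ∑ l : Lam (U.subgroupOf B), χ (b : G) * conj ((l.1 (t⁻¹ * b) : ℂˣ) : ℂ) =
      if ((t⁻¹ * b : B) : G) ∈ U then (Nat.card (Lam (U.subgroupOf B)) : ℂ) * χ (b : G) else 0 := by
    intro b
    rw [← Finset.mul_sum, h.sum_conj]
    split_ifs <;> ring
  rw [Finset.sum_congr rfl fun b _ => h2 b, ← Finset.sum_filter, ← Finset.mul_sum]
  have h3 : ∑ b ∈ Finset.univ.filter (fun b : B => ((t⁻¹ * b : B) : G) ∈ U), χ (b : G) = ∑ u : U, χ ((t : G) * u) := by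
    symm
    refine Finset.sum_bij (fun (u : U) _ => (t * ⟨u, h.le u.2⟩ : B)) (fun u _ => Finset.mem_filter.2 ⟨Finset.mem_univ _, ?_⟩)
      (fun a _ b _ e => ?_) (fun b hb => ?_) (fun _ _ => rfl)
    · rw [inv_mul_cancel_left]; exact u.2
    · exact Subtype.ext (congrArg (fun z : B => (z : G)) (mul_left_cancel e))
    · exact ⟨⟨(t⁻¹ * b : B), (Finset.mem_filter.1 hb).2⟩, Finset.mem_univ _, by
        apply Subtype.ext; show (t : G) * ((t⁻¹ * b : B) : G) = b; simp⟩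
  rw [h3]
  have h4 := h.card_Lam
  have h5 : (Nat.card B : ℂ) ≠ 0 := by exact_mod_cast Nat.card_pos.ne'
  field_simp
  linear_combination (∑ u : U, χ ((t : G) * u)) * h4

theorem lin_ind {K : Type*} [Group K] [Fintype K] {l l' : K →* ℂˣ} (hne : l ≠ l') :
    classInner (fun b => ((l b : ℂˣ) : ℂ)) (fun b => ((l' b : ℂˣ) : ℂ)) = 0 := by
  refine ci_irr_ne (isIrr_of_hom_units l) (isIrr_of_hom_units l') fun h => hne ?_
  ext b
  exact congrFun h b

/-- multiplicities are natural numbers -/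
theorem mB_nat [Fintype B] {χ : G → ℂ} (hχ : IsCharacter G χ) (l : B →* ℂˣ) : ∃ n : ℕ, mB B χ l = n :=
  ci_char_nat (IsChar.res hχ B) (IsIrr.isCharacter (isIrr_of_hom_units l))

open Classical in
/-- multiplicity one -/
theorem WS.unique (h : WS p U B ψ g0) [Fintype B] [Fintype U] {l : B →* ℂˣ} (hl : l ∈ Lam (U.subgroupOf B))
    {χ χ' : G → ℂ} (hχ : DZ p χ) (hχ' : DZ p χ') (hm : mB B χ l ≠ 0) (hm' : mB B χ' l ≠ 0) : χ = χ' ∧ χ 1 = (Nat.card U : ℂ) ∧ mB B χ l = 1 := by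
  haveI : Fintype (IrrCharacter G) := Fintype.ofFinite _
  have hU0 : (Nat.card U : ℂ) ≠ 0 := by exact_mod_cast Nat.card_pos.ne'
  obtain ⟨n, hn, hW⟩ := h.ind_le hl
  have hcl : IsClassFunction G (indFun B (fun b => ((l b : ℂˣ) : ℂ))) := ind_isClass B _
  -- expand
  set f := indFun B (fun b => ((l b : ℂˣ) : ℂ)) with hf
  set W : (G → ℂ) → ℂ := fun φ => classInner (fun u : U => φ (u : G)) (fun u => ((ψ u : ℂˣ) : ℂ)) with hWdef
  have hWf : W f = ∑ ξ : IrrCharacter G, classInner f (ξ : G → ℂ) * W (ξ : G → ℂ) := by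
    have h1 : (fun u : U => f (u : G)) = ∑ ξ : IrrCharacter G, classInner f (ξ : G → ℂ) • (fun u : U => (ξ : G → ℂ) (u : G)) := by
      funext u
      rw [Finset.sum_apply]
      exact expand_apply f hcl u
    show classInner (fun u : U => f (u : G)) _ = _
    rw [h1, ci_sum_left]
    refine Finset.sum_congr rfl fun ξ _ => ?_
    rw [ci_smul_left]
  have hWf' : W f = (n : ℂ) / ((Nat.card U : ℂ) * (Nat.card B : ℂ)) := by
    rw [← hW]
  have hmult : ∀ ξ : IrrCharacter G, classInner f (ξ : G → ℂ) = mB B (ξ : G → ℂ) l := by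
    intro ξ
    obtain ⟨k, hk⟩ := mB_nat (B := B) (IsIrr.isCharacter ξ.2) l
    rw [hf, CharInd.frobenius B _ _ (IsIrr.isClass ξ.2), hk]
    have h2 : conj (mB B (ξ : G → ℂ) l) = (k : ℂ) := by rw [hk]; simp
    unfold mB at h2
    rw [ci_conj_symm] at h2
    exact h2
  have hnat : ∀ ξ : IrrCharacter G, ∃ k : ℕ, classInner f (ξ : G → ℂ) * W (ξ : G → ℂ) = k := by
    intro ξ
    obtain ⟨k, hk⟩ := mB_nat (B := B) (IsIrr.isCharacter ξ.2) l
    obtain ⟨k', hk'⟩ := ci_char_nat (IsChar.res (IsIrr.isCharacter ξ.2) U) (IsIrr.isCharacter (isIrr_of_hom_units ψ))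
    refine ⟨k * k', ?_⟩
    rw [hmult, hk]
    show _ * classInner _ _ = _
    rw [hk']; push_cast; rfl
  choose c hc using hnat
  have hsum : ((∑ ξ : IrrCharacter G, c ξ : ℕ) : ℂ) = (n : ℂ) / ((Nat.card U : ℂ) * (Nat.card B : ℂ)) := by
    rw [← hWf', hWf]; push_cast
    exact Finset.sum_congr rfl fun ξ _ => (hc ξ).symm
  have hle : ∑ ξ : IrrCharacter G, c ξ ≤ 1 := by
    have h0 : 0 < Nat.card U * Nat.card B := Nat.mul_pos Nat.card_pos Nat.card_pos
    have h1 : ((∑ ξ : IrrCharacter G, c ξ : ℕ) : ℂ) * ((Nat.card U * Nat.card B : ℕ) : ℂ) = (n : ℂ) := by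
      rw [hsum]; push_cast
      have : (Nat.card B : ℂ) ≠ 0 := by exact_mod_cast Nat.card_pos.ne'
      field_simp
    have h2 : (∑ ξ : IrrCharacter G, c ξ) * (Nat.card U * Nat.card B) = n := by exact_mod_cast h1
    by_contra h3
    have h4 : 2 * (Nat.card U * Nat.card B) ≤ n := by
      rw [← h2]; exact Nat.mul_le_mul_right _ (by omega)
    omega
  -- contributions of defect zero characters
  have key : ∀ ξ : IrrCharacter G, DZ p (ξ : G → ℂ) → mB B (ξ : G → ℂ) l ≠ 0 → 1 ≤ c ξ ∧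
      ((c ξ : ℂ) = mB B (ξ : G → ℂ) l * ((ξ : G → ℂ) 1 / (Nat.card U : ℂ))) := by
    intro ξ hξ hne
    have h1 : (c ξ : ℂ) = mB B (ξ : G → ℂ) l * ((ξ : G → ℂ) 1 / (Nat.card U : ℂ)) := by
      rw [← hc ξ, hmult]
      congr 1
      exact h.res_U hξ ψ
    refine ⟨?_, h1⟩
    have h2 : c ξ ≠ 0 := by
      intro h0
      rw [h0, Nat.cast_zero] at h1
      rcases mul_eq_zero.1 h1.symm with h3 | h3
      · exact hne h3
      · exact div_ne_zero (IsIrr.one_ne_zero ξ.2) hU0 h3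
    omega
  have k1 := key ⟨χ, hχ.1⟩ hχ hm
  have k2 := key ⟨χ', hχ'.1⟩ hχ' hm'
  have heq : χ = χ' := by
    by_contra hne
    have h1 : ({⟨χ, hχ.1⟩, ⟨χ', hχ'.1⟩} : Finset (IrrCharacter G)) ⊆ Finset.univ := Finset.subset_univ _
    have h2 := Finset.sum_le_sum_of_subset (f := c) h1
    rw [Finset.sum_pair (fun e => hne (congrArg Subtype.val e))] at h2
    omega
  refine ⟨heq, ?_⟩
  have h3 : c ⟨χ, hχ.1⟩ = 1 := by
    have := Finset.single_le_sum (f := c) (fun _ _ => Nat.zero_le _) (Finset.mem_univ (⟨χ, hχ.1⟩ : IrrCharacter G))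
    omega
  obtain ⟨m, hmm⟩ := mB_nat (B := B) (IsIrr.isCharacter hχ.1) l
  obtain ⟨d, hd⟩ := hχ.2
  rw [← h.card] at hd
  have h4 := k1.2
  rw [h3] at h4
  simp only at h4
  rw [hmm, hd] at h4
  push_cast at h4
  rw [mul_div_cancel_left₀ _ hU0] at h4
  have h5 : m * d = 1 := by exact_mod_cast h4.symm
  have h6 := Nat.eq_one_of_mul_eq_one_right h5
  have h7 := Nat.eq_one_of_mul_eq_one_left h5
  rw [hmm, hd, h6, h7]
  simp

/-- orders of `p`-regular elements in a coset of a normal `p`-subgroup -/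
theorem order_dvd {K : Type*} [Group K] [Finite K] (N : Subgroup K) [N.Normal] (hN : IsPGroup p N) {y z : K}
    (hy : ¬ p ∣ orderOf y) (hz : ¬ p ∣ orderOf z) (hyz : y⁻¹ * z ∈ N) : orderOf z ∣ orderOf y := by
  have h1 : z ^ orderOf y ∈ N := by
    rw [← QuotientGroup.eq_one_iff, QuotientGroup.mk_pow]
    have : ((z : K) : K ⧸ N) = ((y : K) : K ⧸ N) := (QuotientGroup.eq.2 hyz).symm
    rw [this, ← QuotientGroup.mk_pow, pow_orderOf_eq_one]; rfl
  obtain ⟨k, hk⟩ := (IsPGroup.iff_orderOf.1 hN) ⟨_, h1⟩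
  rw [Subgroup.orderOf_mk] at hk
  have h2 : orderOf (z ^ orderOf y) ∣ orderOf z := orderOf_pow_dvd _
  rw [hk] at h2
  rcases Nat.eq_zero_or_pos k with rfl | hpos
  · rw [pow_zero, orderOf_eq_one_iff] at hk
    exact orderOf_dvd_of_pow_eq_one hk
  · exact absurd ((dvd_pow_self p hpos.ne').trans h2) hz

theorem WS.conj_reg (h : WS p U B ψ g0) {t : G} (ht : t ∈ B) (htp : ¬ p ∣ orderOf t) {u : G} (hu : u ∈ U)
    (hup : ¬ p ∣ orderOf (t * u)) : IsConj t (t * u) := by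
  haveI := h.normal
  have hU' : IsPGroup p (U.subgroupOf B) := by
    apply IsPGroup.of_equiv h.pg (Subgroup.subgroupOfEquivOfLe h.le).symm
  have htu : t * u ∈ B := B.mul_mem ht (h.le hu)
  have h1 : (⟨t, ht⟩ : B)⁻¹ * ⟨t * u, htu⟩ ∈ U.subgroupOf B := by
    rw [Subgroup.mem_subgroupOf]
    show t⁻¹ * (t * u) ∈ U
    rw [inv_mul_cancel_left]; exact hu
  have o1 : ¬ p ∣ orderOf (⟨t, ht⟩ : B) := by rwa [Subgroup.orderOf_mk]
  have o2 : ¬ p ∣ orderOf (⟨t * u, htu⟩ : B) := by rwa [Subgroup.orderOf_mk]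
  have h2 : (⟨t * u, htu⟩ : B)⁻¹ * ⟨t, ht⟩ ∈ U.subgroupOf B := by
    have := (U.subgroupOf B).inv_mem h1
    rwa [mul_inv_rev, inv_inv] at this
  have h3 : orderOf (⟨t * u, htu⟩ : B) = orderOf (⟨t, ht⟩ : B) :=
    Nat.dvd_antisymm (order_dvd _ hU' o1 o2 h1) (order_dvd _ hU' o2 o1 h2)
  have h4 : (orderOf (⟨t, ht⟩ : B)).Coprime (Nat.card (U.subgroupOf B)) := by
    obtain ⟨k, hk⟩ := (IsPGroup.iff_card.1 hU')
    rw [hk]
    exact Nat.Coprime.pow_right _ ((Nat.Prime.coprime_iff_not_dvd hp.out).2 o1).symm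
  obtain ⟨n, hn, e⟩ := H22.Real.conj_of_coset (U.subgroupOf B) _ _ h3 h4 h1
  rw [isConj_iff]
  exact ⟨n, congrArg (fun z : B => (z : G)) e⟩

open Classical in
/-- values on `p`-regular elements of `B` -/
theorem WS.value (h : WS p U B ψ g0) [Fintype B] [Fintype U] {l : B →* ℂˣ} (hl : l ∈ Lam (U.subgroupOf B))
    {χ : G → ℂ} (hχ : DZ p χ) (hm : mB B χ l ≠ 0) {t : G} (ht : t ∈ B) (htp : ¬ p ∣ orderOf t) :
    ∃ c : ℕ, c ≠ 0 ∧ (c : ℂ) * χ t = (Nat.card U : ℂ) * ((l ⟨t, ht⟩ : ℂˣ) : ℂ) := by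
  haveI := fin_Lam' h.comm
  haveI : Fintype (Lam (U.subgroupOf B)) := Fintype.ofFinite _
  have hU0 : (Nat.card U : ℂ) ≠ 0 := by exact_mod_cast Nat.card_pos.ne'
  obtain ⟨-, h1, h2⟩ := h.unique hl hχ hχ hm hm
  -- other multiplicities vanish
  have hs := h.sum_mB χ
  have hone : classInner (fun u : U => χ (u : G)) (fun _ => 1) = 1 := by
    have := h.res_U hχ (1 : U →* ℂˣ)
    simp only [MonoidHom.one_apply, Units.val_one] at this
    rw [this, h1, div_self hU0]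
  rw [hone] at hs
  have hz : ∀ l' : Lam (U.subgroupOf B), l'.1 ≠ l → mB B χ l'.1 = 0 := by
    have hn : ∀ l' : Lam (U.subgroupOf B), ∃ n : ℕ, mB B χ l'.1 = n := fun l' => mB_nat (IsIrr.isCharacter hχ.1) l'.1
    choose c hc using hn
    have h3 : ∑ l' : Lam (U.subgroupOf B), c l' = 1 := by
      have : ((∑ l' : Lam (U.subgroupOf B), c l' : ℕ) : ℂ) = 1 := by
        rw [← hs]; push_cast
        exact Finset.sum_congr rfl fun l' _ => (hc l').symm
      exact_mod_cast this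
    have h4 : c ⟨l, hl⟩ = 1 := by
      have := hc ⟨l, hl⟩
      simp only at this
      rw [h2] at this
      exact_mod_cast this.symm
    intro l' hne
    have h5 := Finset.add_sum_erase Finset.univ c (Finset.mem_univ (⟨l, hl⟩ : Lam (U.subgroupOf B)))
    rw [h3, h4] at h5
    have h6 : ∑ x ∈ Finset.univ.erase (⟨l, hl⟩ : Lam (U.subgroupOf B)), c x = 0 := by omega
    have h7 := (Finset.sum_eq_zero_iff.1 h6) l' (Finset.mem_erase.2 ⟨fun e => hne (congrArg Subtype.val e), Finset.mem_univ _⟩)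
    rw [hc l', h7, Nat.cast_zero]
  have hinv := h.inversion χ ⟨t, ht⟩
  rw [Finset.sum_eq_single_of_mem (⟨l, hl⟩ : Lam (U.subgroupOf B)) (Finset.mem_univ _)
    (fun l' _ hne => by rw [hz l' (fun e => hne (Subtype.ext e)), zero_mul]), h2, one_mul] at hinv
  have hval : ∀ u : U, χ (t * u) = if p ∣ orderOf (t * (u : G)) then 0 else χ t := by
    intro u
    split_ifs with hd
    · exact vanish h.pdvd hχ hd
    · exact (IsClass.eq_of_isConj (IsIrr.isClass hχ.1) (h.conj_reg ht htp u.2 hd)).symm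
  have h8 : ∑ u : U, χ (t * u) = ((Finset.univ.filter fun u : U => ¬ p ∣ orderOf (t * (u : G))).card : ℂ) * χ t := by
    rw [Finset.sum_congr rfl fun u _ => hval u, Finset.sum_ite, Finset.sum_const_zero, zero_add, Finset.sum_const, nsmul_eq_mul]
  refine ⟨(Finset.univ.filter fun u : U => ¬ p ∣ orderOf (t * (u : G))).card, ?_, ?_⟩
  · rw [Finset.card_ne_zero]
    exact ⟨1, Finset.mem_filter.2 ⟨Finset.mem_univ _, by rw [Subgroup.coe_one, mul_one]; exact htp⟩⟩
  · rw [← h8, hinv]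

/-- the linear character is constant on conjugacy classes -/
theorem WS.inv (h : WS p U B ψ g0) [Fintype B] [Fintype U] {l : B →* ℂˣ} (hl : l ∈ Lam (U.subgroupOf B))
    {χ : G → ℂ} (hχ : DZ p χ) (hm : mB B χ l ≠ 0) {t t' : G} (ht : t ∈ B) (ht' : t' ∈ B) (htp : ¬ p ∣ orderOf t)
    (hc : IsConj t t') : l ⟨t, ht⟩ = l ⟨t', ht'⟩ := by
  have htp' : ¬ p ∣ orderOf t' := by
    obtain ⟨x, hx⟩ := isConj_iff.1 hc
    rw [← hx]
    have := (MulAut.conj x).orderOf_eq t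
    rw [MulAut.conj_apply] at this
    rwa [this]
  obtain ⟨c, hc0, h1⟩ := h.value hl hχ hm ht htp
  obtain ⟨c', hc0', h2⟩ := h.value hl hχ hm ht' htp'
  rw [← IsClass.eq_of_isConj (IsIrr.isClass hχ.1) hc] at h2
  have hU0 : (Nat.card U : ℂ) ≠ 0 := by exact_mod_cast Nat.card_pos.ne'
  have h3 : (c' : ℂ) * ((l ⟨t, ht⟩ : ℂˣ) : ℂ) = (c : ℂ) * ((l ⟨t', ht'⟩ : ℂˣ) : ℂ) := by
    apply mul_left_cancel₀ hU0
    linear_combination (-(c' : ℂ)) * h1 + (c : ℂ) * h2
  have hn : ∀ b : B, ‖((l b : ℂˣ) : ℂ)‖ = 1 := by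
    intro b
    apply norm_eq_one_of_pow (n := Nat.card B) Nat.card_pos.ne'
    rw [← Units.val_pow_eq_pow_val, ← map_pow, pow_card_eq_one', map_one, Units.val_one]
  have h4 := congrArg norm h3
  rw [norm_mul, norm_mul, hn, hn, mul_one, mul_one, Complex.norm_natCast, Complex.norm_natCast] at h4
  have h5 : c' = c := by exact_mod_cast h4
  rw [h5] at h3
  exact Units.ext (mul_left_cancel₀ (by exact_mod_cast hc0) h3)

/-- uniqueness of the character of defect zero -/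
theorem WS.main (h : WS p U B ψ g0)
    (hB : ∀ l : B →* ℂˣ, l ∈ Lam (U.subgroupOf B) → (∀ t t' : G, ∀ (ht : t ∈ B) (ht' : t' ∈ B), ¬ p ∣ orderOf t →
      IsConj t t' → l ⟨t, ht⟩ = l ⟨t', ht'⟩) → l = 1) {χ χ' : G → ℂ} (hχ : DZ p χ) (hχ' : DZ p χ') : χ = χ' := by
  classical
  haveI : Fintype B := Fintype.ofFinite _
  haveI : Fintype U := Fintype.ofFinite _
  haveI := fin_Lam' h.comm
  haveI : Fintype (Lam (U.subgroupOf B)) := Fintype.ofFinite _
  have hU0 : (Nat.card U : ℂ) ≠ 0 := by exact_mod_cast Nat.card_pos.ne'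
  have key : ∀ ξ : G → ℂ, DZ p ξ → mB B ξ 1 ≠ 0 := by
    intro ξ hξ
    have h1 : ∑ l : Lam (U.subgroupOf B), mB B ξ l.1 ≠ 0 := by
      rw [h.sum_mB]
      have := h.res_U hξ (1 : U →* ℂˣ)
      simp only [MonoidHom.one_apply, Units.val_one] at this
      rw [this]
      exact div_ne_zero (IsIrr.one_ne_zero hξ.1) hU0
    obtain ⟨l, -, hl⟩ := Finset.exists_ne_zero_of_sum_ne_zero h1
    have h2 := hB l.1 l.2 (fun t t' ht ht' htp hc => h.inv l.2 hξ hl ht ht' htp hc)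
    rw [h2] at hl
    exact hl
  exact (h.unique (Subgroup.one_mem (Lam (U.subgroupOf B))) hχ hχ' (key χ hχ) (key χ' hχ')).1

end Cfsg.Agent.H25.Whi
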