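import Mathlib
import Cfsg.Agent.H26_Defect2
import Cfsg.Agent.H10_BlockQuot
import Cfsg.Agent.H10_BlockMono
import Cfsg.Agent.H10_BlockHZ
import Cfsg.Agent.H25_BPDef
import Cfsg.Agent.H25_Cov2
import Cfsg.Agent.H25_BPSub
import Cfsg.Agent.H10_Char

/-!
# Blocks with central defect group: recognition by a defect zero character of the quotient
-/

set_option autoImplicit false
set_option linter.unusedSectionVars false
set_option linter.style.haveILetI false

namespace Cfsg.Agent.H26.ZDef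

open Cfsg Cfsg.Agent.H10.BlockLoc Cfsg.Agent.H10.BlockAlg Cfsg.Agent.H10.BlockIdem Cfsg.Agent.H10.BlockDefect
  Cfsg.Agent.H10.BlockQuot Cfsg.Agent.H10.BlockOrth Cfsg.Agent.H10.BlockNormal Cfsg.Agent.H10.BlockMain
  Cfsg.Agent.H3.CharIrr Cfsg.Agent.H10.Char Cfsg.Agent.H26.Basic Cfsg.Agent.H26.Defect2
open scoped ComplexConjugate

variable {G : Type*} [Group G] [Fintype G] {p : ℕ} [hp : Fact p.Prime] {M : Ideal AlgInt}

theorem charDegree_infl (N : Subgroup G) [N.Normal] [Fintype (G ⧸ N)] (χ : IrrCharacter (G ⧸ N)) :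
    charDegree ((infl N χ : IrrCharacter G) : G → ℂ) = charDegree (χ : G ⧸ N → ℂ) := by
  have h1 : (charDegree ((infl N χ : IrrCharacter G) : G → ℂ) : ℂ) = charDegree (χ : G ⧸ N → ℂ) := by
    rw [cd_eq, cd_eq, infl_apply]
    rfl
  exact_mod_cast h1

theorem only_ker (hM : IsPModular p M) {Z : Subgroup G} (hZc : Z ≤ Subgroup.center G) (hZp : IsPGroup p Z)
    {θ χ : IrrCharacter G} (hs : SameBlock M (θ : G → ℂ) (χ : G → ℂ))
    (hker : ∀ z ∈ Z, (θ : G → ℂ) z = (θ : G → ℂ) 1) (hker' : ∀ z ∈ Z, (χ : G → ℂ) z = (χ : G → ℂ) 1)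
    (hdeg : (charDegree (θ : G → ℂ)).factorization p + (Nat.card Z).factorization p = (Nat.card G).factorization p) :
    χ = θ := by
  haveI := hM.2.1
  haveI hZn : Z.Normal := ⟨fun n hn y => by
    have h1 := Subgroup.mem_center_iff.1 (hZc hn) y
    have : y * n * y⁻¹ = n := by rw [h1]; group
    rw [this]; exact hn⟩
  haveI : Fintype (G ⧸ Z) := Fintype.ofFinite _
  obtain ⟨θ', rfl⟩ := exists_infl Z hker
  obtain ⟨χ', rfl⟩ := exists_infl Z hker'
  have hC : Subgroup.centralizer (Z : Set G) = ⊤ := by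
    rw [Subgroup.centralizer_eq_top_iff_subset]
    exact hZc
  have h1 := sameBlock_of_infl' Z hM hZp ⟨0, by rw [hC, Subgroup.index_top, pow_zero]⟩ hs
  have hcard : (Nat.card G).factorization p = (Nat.card (G ⧸ Z)).factorization p + (Nat.card Z).factorization p := by
    rw [Subgroup.card_eq_card_quotient_mul_card_subgroup Z, Nat.factorization_mul Nat.card_pos.ne' Nat.card_pos.ne']
    rfl
  rw [charDegree_infl] at hdeg
  rw [eq_of_sameBlock_of_defect_zero (p := p) hM (by omega) h1]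

open scoped Classical in
theorem sum_central {Z : Subgroup G} [Fintype Z] (hZc : Z ≤ Subgroup.center G) (χ : IrrCharacter G) (g : G) :
    ∑ z : Z, (χ : G → ℂ) (g * z) = (if (∀ z ∈ Z, (χ : G → ℂ) z = (χ : G → ℂ) 1) then (Nat.card Z : ℂ) else 0) * (χ : G → ℂ) g := by
  classical
  haveI hZn : Z.Normal := ⟨fun n hn y => by
    have h1 := Subgroup.mem_center_iff.1 (hZc hn) y
    have : y * n * y⁻¹ = n := by rw [h1]; group
    rw [this]; exact hn⟩
  have hχ1 := irr_one_ne χ.2
  have hmul : ∀ z : Z, (χ : G → ℂ) (g * z) = (χ : G → ℂ) z / (χ : G → ℂ) 1 * (χ : G → ℂ) g := by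
    intro z
    obtain ⟨c, hc1, hc2⟩ := Cfsg.Agent.H3.CharInt.IsIrr.central χ.2 (hZc z.2)
    have h1 := hc2 1
    rw [one_mul] at h1
    rw [hc2 g, h1]
    field_simp
  rw [Finset.sum_congr rfl fun z _ => hmul z, ← Finset.sum_mul, ← Finset.sum_div]
  congr 1
  split_ifs with h
  · rw [Finset.sum_congr rfl fun z _ => h z.1 z.2, Finset.sum_const, nsmul_eq_mul, Finset.card_univ,
      Nat.card_eq_fintype_card]
    field_simp
  · rw [div_eq_zero_iff]
    left
    by_contra h0
    apply h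
    apply ker_of_sum_ne_zero χ.2 Z
    rw [← Finset.sum_filter]
    intro h1
    apply h0
    rw [← h1]
    exact (Finset.sum_subtype (Finset.univ.filter (fun u => u ∈ Z)) (fun x => by simp) (fun u => (χ : G → ℂ) u)).symm

/-- values of the block idempotent -/
theorem coeff_eq (hM : IsPModular p M) {B : Set (IrrCharacter G)} (hB : IsPBlock M B) {Z : Subgroup G}
    (hZc : Z ≤ Subgroup.center G) (hZp : IsPGroup p Z) {θ : IrrCharacter G} (hθ : θ ∈ B)
    (hker : ∀ z ∈ Z, (θ : G → ℂ) z = (θ : G → ℂ) 1)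
    (hdeg : (charDegree (θ : G → ℂ)).factorization p + (Nat.card Z).factorization p = (Nat.card G).factorization p)
    {y : G} (hy : ¬ p ∣ orderOf y) :
    blockCoeff B y = (Nat.card G : ℂ)⁻¹ * ((Nat.card Z : ℂ) * ((θ : G → ℂ) 1 * (θ : G → ℂ) y⁻¹)) := by
  classical
  haveI := hM.2.1
  haveI : Fintype Z := Fintype.ofFinite _
  haveI : Fintype (IrrCharacter G) := Fintype.ofFinite _
  have h1 : ∑ z : Z, blockCoeff B (y * z) = blockCoeff B y := by
    rw [Finset.sum_eq_single (1 : Z)]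
    · simp
    · intro z _ hz
      apply blockCoeff_eq_zero hM hB
      have hzc : Commute y (z : G) := (Subgroup.mem_center_iff.1 (hZc z.2) y)
      obtain ⟨k, hk⟩ := IsPGroup.iff_orderOf.1 hZp z
      have hk0 : k ≠ 0 := by
        rintro rfl
        rw [pow_zero, orderOf_eq_one_iff] at hk
        exact hz hk
      have hk' : orderOf (z : G) = p ^ k := by rw [Subgroup.orderOf_coe]; exact hk
      rw [hzc.orderOf_mul_eq_mul_orderOf_of_coprime, hk']
      · exact Dvd.dvd.mul_left (dvd_pow_self p hk0) _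
      · rw [hk']
        exact Nat.Coprime.pow_right _ ((Nat.Prime.coprime_iff_not_dvd hp.out).2 hy).symm
    · intro h; exact absurd (Finset.mem_univ _) h
  rw [← h1]
  simp_rw [blockCoeff_eq_sum]
  rw [← Finset.mul_sum, Finset.sum_comm]
  congr 1
  have h2 : ∀ χ : IrrCharacter G, χ ∈ B → ∑ z : Z, (χ : G → ℂ) 1 * conj ((χ : G → ℂ) (y * z)) =
      (χ : G → ℂ) 1 * conj ((if (∀ z ∈ Z, (χ : G → ℂ) z = (χ : G → ℂ) 1) then (Nat.card Z : ℂ) else 0) * (χ : G → ℂ) y) := by
    intro χ _
    rw [← sum_central hZc, map_sum, Finset.mul_sum]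
  rw [Finset.sum_eq_single θ]
  · simp only [if_pos hθ]
    rw [h2 θ hθ, if_pos hker, map_mul, inv_eq, Complex.conj_natCast]
    ring
  · intro χ _ hχ
    by_cases hχB : χ ∈ B
    · simp only [if_pos hχB]
      rw [h2 χ hχB, if_neg, zero_mul, map_zero, mul_zero]
      intro hk
      exact hχ (only_ker hM hZc hZp (block_sameBlock hB hθ hχB) hker hk hdeg)
    · simp [hχB]
  · intro h; exact absurd (Finset.mem_univ _) h

/-- `p`-subgroups centralizing an element of the support of the block idempotent lie in `Z` -/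
theorem le_of_coeff (hM : IsPModular p M) {B : Set (IrrCharacter G)} (hB : IsPBlock M B) {Z : Subgroup G}
    (hZc : Z ≤ Subgroup.center G) (hZp : IsPGroup p Z) {θ : IrrCharacter G} (hθ : θ ∈ B)
    (hker : ∀ z ∈ Z, (θ : G → ℂ) z = (θ : G → ℂ) 1)
    (hdeg : (charDegree (θ : G → ℂ)).factorization p + (Nat.card Z).factorization p = (Nat.card G).factorization p)
    {y : G} (hy : ¬ MemLocalIdeal M (blockCoeff B y)) {R : Subgroup G} (hR : IsPGroup p R)
    (hRy : ∀ r ∈ R, r * y = y * r) : R ≤ Z := by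
  classical
  haveI := hM.2.1
  have hyp : ¬ p ∣ orderOf y := by
    intro h
    apply hy
    rw [blockCoeff_eq_zero hM hB _ h]
    exact ideal_zero
  have h1 := coeff_eq hM hB hZc hZp hθ hker hdeg hyp
  by_contra hnot
  apply hy
  rw [h1]
  -- the centralizer of y⁻¹
  set C := Subgroup.centralizer ({y⁻¹} : Set G) with hC
  have hRZ : R ⊔ Z ≤ C := by
    apply sup_le
    · intro r hr
      rw [hC, Subgroup.mem_centralizer_singleton_iff]
      have := hRy r hr
      calc r * y⁻¹ = y⁻¹ * (y * r) * y⁻¹ := by group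
        _ = y⁻¹ * (r * y) * y⁻¹ := by rw [this]
        _ = y⁻¹ * r := by group
    · intro z hz
      rw [hC, Subgroup.mem_centralizer_singleton_iff]
      exact (Subgroup.mem_center_iff.1 (hZc hz) y⁻¹).symm
  have hθ1 := irr_one_ne θ.2
  have hc : (Nat.card G : ℂ) ≠ 0 := Nat.cast_ne_zero.2 Nat.card_pos.ne'
  have hCc : (Nat.card C : ℂ) ≠ 0 := Nat.cast_ne_zero.2 Nat.card_pos.ne'
  have hidx : (C.index : ℂ) = (Nat.card G : ℂ) / (Nat.card C : ℂ) := by
    rw [eq_div_iff hCc]
    exact_mod_cast C.index_mul_card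
  have e1 : (Nat.card G : ℂ)⁻¹ * ((Nat.card Z : ℂ) * ((θ : G → ℂ) 1 * (θ : G → ℂ) y⁻¹)) =
      centralChar (θ : G → ℂ) y⁻¹ *
        (((charDegree (θ : G → ℂ) ^ 2 * (Nat.card Z * Nat.card C) : ℕ) : ℂ) / ((Nat.card G ^ 2 : ℕ) : ℂ)) := by
    rw [centralChar, ← hC, hidx]
    push_cast
    rw [cd_eq]
    field_simp
  rw [e1]
  refine ideal_mul_left (memLocalRing_of_integral hM.2.1.ne_top (isIntegral_centralChar θ _)) ?_
  have hd0 := (cd_pos θ).ne'
  have hZ0 : Nat.card Z ≠ 0 := Nat.card_pos.ne'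
  have hC0 : Nat.card C ≠ 0 := Nat.card_pos.ne'
  have hG0 : Nat.card G ≠ 0 := Nat.card_pos.ne'
  refine ideal_nat_div hM (mul_ne_zero (pow_ne_zero _ hd0) (mul_ne_zero hZ0 hC0)) (pow_ne_zero _ hG0) ?_
  rw [Nat.factorization_mul (pow_ne_zero _ hd0) (mul_ne_zero hZ0 hC0), Nat.factorization_mul hZ0 hC0,
    Nat.factorization_pow, Nat.factorization_pow]
  simp only [Finsupp.add_apply, Finsupp.smul_apply, smul_eq_mul]
  have hlt : (Nat.card Z).factorization p < (Nat.card C).factorization p := by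
    have hn : R ≤ Subgroup.normalizer (Z : Set G) := by
      haveI hZn : Z.Normal := ⟨fun n hn y => by
        have h1 := Subgroup.mem_center_iff.1 (hZc hn) y
        have : y * n * y⁻¹ = n := by rw [h1]; group
        rw [this]; exact hn⟩
      rw [Subgroup.normalizer_eq_top]; exact le_top
    have hRZp : IsPGroup p (Z ⊔ R : Subgroup G) := Cfsg.Agent.H25.BPSub.isPGroup_sup hZp hR hn
    obtain ⟨a, ha⟩ := IsPGroup.iff_card.1 hRZp
    obtain ⟨b, hb⟩ := IsPGroup.iff_card.1 hZp
    have hlt' : Z < Z ⊔ R := lt_of_le_of_ne le_sup_left (fun h => hnot (by rw [h]; exact le_sup_right))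
    have hcl : Nat.card Z < Nat.card (Z ⊔ R : Subgroup G) := by
      apply lt_of_le_of_ne (Subgroup.card_le_of_le hlt'.le)
      intro h
      exact hlt'.ne (Subgroup.eq_of_le_of_card_ge hlt'.le h.ge)
    rw [ha, hb] at hcl
    have hab := (Nat.pow_lt_pow_iff_right hp.out.one_lt).1 hcl
    have hdvd : p ^ a ∣ Nat.card C := by
      rw [← ha]
      rw [sup_comm] at hRZ
      exact Subgroup.card_dvd_of_le hRZ
    have h3 : a ≤ (Nat.card C).factorization p := (hp.out.pow_dvd_iff_le_factorization hC0).1 hdvd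
    have h4 : (Nat.card Z).factorization p = b := by rw [hb, hp.out.factorization_pow, Finsupp.single_eq_same]
    omega
  omega

/-- a block with a character of defect zero modulo the central `p`-subgroup `Z` has defect group `Z` -/
theorem defectGroup (hM : IsPModular p M) {B : Set (IrrCharacter G)} (hB : IsPBlock M B) {Z : Subgroup G}
    (hZc : Z ≤ Subgroup.center G) (hZp : IsPGroup p Z) {θ : IrrCharacter G} (hθ : θ ∈ B)
    (hker : ∀ z ∈ Z, (θ : G → ℂ) z = (θ : G → ℂ) 1)
    (hdeg : (charDegree (θ : G → ℂ)).factorization p + (Nat.card Z).factorization p = (Nat.card G).factorization p) :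
    IsDefectGroup p M B Z := by
  classical
  haveI := hM.2.1
  obtain ⟨g, hg⟩ := exists_defectClass hB
  obtain ⟨P⟩ : Nonempty (Sylow p (Subgroup.centralizer ({g} : Set G))) := inferInstance
  refine ⟨g, hg, P, ?_⟩
  have hP : IsPGroup p ((P : Subgroup (Subgroup.centralizer ({g} : Set G))).map (Subgroup.centralizer ({g} : Set G)).subtype) :=
    P.isPGroup'.map _
  apply le_antisymm
  · exact normal_le_defectGroup hM hB ⟨g, hg, P, rfl⟩ Z hZp (hN := ⟨fun n hn y => by
        have h1 := Subgroup.mem_center_iff.1 (hZc hn) y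
        have : y * n * y⁻¹ = n := by rw [h1]; group
        rw [this]; exact hn⟩)
  · apply le_of_coeff hM hB hZc hZp hθ hker hdeg hg.2.1 hP
    rintro _ ⟨r, hr, rfl⟩
    exact Subgroup.mem_centralizer_singleton_iff.1 r.2

end Cfsg.Agent.H26.ZDef
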