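import Mathlib
import Cfsg.Agent.H26_ZDef
import Cfsg.Agent.H25_ExtFMT

/-!
# Maximal Brauer pairs: local characterisation
-/

set_option autoImplicit false
set_option linter.unusedSectionVars false
set_option linter.style.haveILetI false

namespace Cfsg.Agent.H26.BPMax

open Cfsg Cfsg.Agent.H10.BlockLoc Cfsg.Agent.H10.BlockAlg Cfsg.Agent.H10.BlockIdem Cfsg.Agent.H10.BlockDefect
  Cfsg.Agent.H10.BlockInd
  Cfsg.Agent.H3.CharIrr Cfsg.Agent.H25.Red Cfsg.Agent.H25.KG Cfsg.Agent.H25.BPTr Cfsg.Agent.H25.BPMain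
  Cfsg.Agent.H25.BPDef Cfsg.Agent.H25.BPNorm Cfsg.Agent.H25.BPSub Cfsg.Agent.H25.Cov Cfsg.Agent.H25.Up
  Cfsg.Agent.H25.Cov2 Cfsg.Agent.H25.Cov3 Cfsg.Agent.H25.FMT Cfsg.Agent.H25.IndQ Cfsg.Agent.H25.HK Cfsg.Agent.H25.ExtFMT
open scoped ComplexConjugate

section main

variable {M : Ideal AlgInt} {G : Type*} [Group G] [Fintype G] {p : ℕ} [hp : Fact p.Prime]
  [hMax : M.IsMaximal] [hch : CharP (KM M) p]

theorem dgh_of_top (hM : IsPModular p M) {B : MonoidAlgebra (KM M) G} {Q H : Subgroup G} {E : MonoidAlgebra (KM M) G}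
    (hB : BP p B Q E) (ht : Top p Q E) (hbH : IsBlk H E) (hn : H ≤ Nm Q) (hfix : Fix H E)
    (hcs : ∀ x ∈ Nm Q, cs x H = H) : DGH p H E (Q ⊓ H) := by
  obtain ⟨D, hD⟩ := exists_DGH (p := p) hM hbH
  obtain ⟨x, hle, hdx⟩ := exists_conj hB ht hB hD hn hfix
  have h1 : cs x Q = Q := Subgroup.eq_of_le_of_card_ge hle.le (by rw [card_cs])
  have hx : x ∈ Nm Q := mem_normalizer_iff_cs.2 h1
  rw [h1] at hle
  rw [hle.eq_of_eq, hcs x hx] at hdx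
  exact hdx

theorem dgh_sup {Q : Subgroup G} {E : MonoidAlgebra (KM M) G} (hQ : IsPGroup p Q)
    (hE : IsBlk (Ce Q) E) (hD : DGH p (Ce Q) E (Q ⊓ Ce Q)) : DGH p (Q ⊔ Ce Q) E Q := by
  have hHN : Q ⊔ Ce Q ≤ Nm Q := sup_le Subgroup.le_normalizer (Ce_le_Nm Q)
  have hne : tr (Ce Q) E ≠ 0 := by
    obtain ⟨y, hy, hy'⟩ := exists_coeff_of_tr_ne hD.ne
    exact tr_ne_of_coeff (hE.mem.1 y hy') hy'
  refine ⟨le_sup_left, hQ, hne, fun R hR hRp hRne => ⟨1, Subgroup.one_mem _, ?_⟩⟩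
  rw [cs_one]
  have hRp' : IsPGroup p (Q ⊔ R : Subgroup G) := isPGroup_sup hQ hRp (hR.trans hHN)
  obtain ⟨y, hy, hy'⟩ := exists_coeff_of_tr_ne hRne
  have hyQ := hE.mem.1 y hy'
  have h1 : (Q ⊔ R) ⊓ Ce Q ≤ Q ⊓ Ce Q := by
    obtain ⟨x, hxC, hx⟩ := hD.max ((Q ⊔ R) ⊓ Ce Q) inf_le_right (hRp'.to_le inf_le_left) (by
      refine tr_ne_of_coeff (y := y) ?_ hy'
      have h2 : Ce (Q ⊔ R) ≤ Ce ((Q ⊔ R) ⊓ Ce Q) := Ce_anti inf_le_left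
      apply h2
      rw [Ce_sup]; exact ⟨hyQ, hy⟩)
    refine hx.trans ?_
    have h3 : cs x (Q ⊓ Ce Q) ≤ cs x Q := Subgroup.map_mono inf_le_left
    have h4 : cs x (Q ⊓ Ce Q) ≤ cs x (Ce Q) := Subgroup.map_mono inf_le_right
    have h5 : cs x Q = Q := mem_normalizer_iff_cs.1 (Ce_le_Nm Q hxC)
    have h6 : cs x (Ce Q) = Ce Q := mem_normalizer_iff_cs.1 (Subgroup.le_normalizer hxC)
    rw [h5] at h3; rw [h6] at h4
    exact le_inf h3 h4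
  intro r hr
  obtain ⟨a, ha, c, hc, hac⟩ : ∃ a ∈ Q, ∃ c ∈ Ce Q, a * c = r := by
    have h2 : r ∈ ((Q ⊔ Ce Q : Subgroup G) : Set G) := hR hr
    rw [Subgroup.coe_mul_of_right_le_normalizer_left _ _ (Ce_le_Nm Q)] at h2
    obtain ⟨a, ha, c, hc, hac⟩ := Set.mem_mul.1 h2
    exact ⟨a, ha, c, hc, hac⟩
  have hc2 : c ∈ (Q ⊔ R) ⊓ Ce Q := by
    refine ⟨?_, hc⟩
    have h2 : c = a⁻¹ * r := by rw [← hac]; group
    rw [h2]
    exact Subgroup.mul_mem _ (Subgroup.inv_mem _ (Subgroup.mem_sup_left ha)) (Subgroup.mem_sup_right hr)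
  rw [← hac]
  exact Q.mul_mem ha (h1 hc2).1

/-- the stabilizer of `(Q, E)` -/
def stb (Q : Subgroup G) (E : MonoidAlgebra (KM M) G) : Subgroup G where
  carrier := {g | g ∈ Nm Q ∧ cnj g E = E}
  one_mem' := ⟨Subgroup.one_mem _, cnj_one_apply E⟩
  mul_mem' := fun {a b} ha hb => ⟨Subgroup.mul_mem _ ha.1 hb.1, by rw [cnj_mul_apply, hb.2, ha.2]⟩
  inv_mem' := fun {a} ha => ⟨Subgroup.inv_mem _ ha.1, by
    conv_lhs => rw [← ha.2]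
    exact cnj_inv_cnj a E⟩

theorem stb_le (Q : Subgroup G) (E : MonoidAlgebra (KM M) G) : stb Q E ≤ Nm Q := fun _ h => h.1

theorem le_stb {Q : Subgroup G} {E : MonoidAlgebra (KM M) G} (hE : IsBlk (Ce Q) E) : Q ⊔ Ce Q ≤ stb Q E := by
  intro g hg
  exact ⟨(sup_le Subgroup.le_normalizer (Ce_le_Nm Q)) hg,
    (fix_sup (fix_of_supp hE.mem.1) hE.mem.2) g hg⟩

theorem stb_norm {Q : Subgroup G} {E : MonoidAlgebra (KM M) G} : stb Q E ≤ Nm (Q ⊔ Ce Q) := by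
  intro g hg
  rw [mem_normalizer_iff_cs]
  have h1 := mem_normalizer_iff_cs.1 hg.1
  have h2 := cs_Nm_Ce hg.1
  rw [H25.KG.cs, Subgroup.map_sup]
  change H25.KG.cs g Q ⊔ H25.KG.cs g (Ce Q) = _
  rw [h1, h2]

theorem blk_sup (hM : IsPModular p M) {Q : Subgroup G} {E : MonoidAlgebra (KM M) G} (hQ : IsPGroup p Q) (hE : IsBlk (Ce Q) E) :
    IsBlk (Q ⊔ Ce Q) E :=
  isBlk_stab hM hQ le_sup_left (sup_le Subgroup.le_normalizer (Ce_le_Nm Q)) le_sup_right hE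
    (fix_sup (fix_of_supp hE.mem.1) hE.mem.2)

theorem top_forward (hM : IsPModular p M) {B : MonoidAlgebra (KM M) G} {Q : Subgroup G} {E : MonoidAlgebra (KM M) G}
    (hB : BP p B Q E) (ht : Top p Q E) : DGH p (Ce Q) E (Q ⊓ Ce Q) ∧
      ∀ g : G, g ∈ Nm Q → cnj g E = E → (∃ k : ℕ, orderOf g = p ^ k) → g ∈ Q ⊔ Ce Q := by
  have hQ := ht.pg
  have hE := ht.blk
  have hHN : Q ⊔ Ce Q ≤ Nm Q := sup_le Subgroup.le_normalizer (Ce_le_Nm Q)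
  have hcs : ∀ x ∈ Nm Q, cs x (Q ⊔ Ce Q) = Q ⊔ Ce Q := by
    intro g hg
    have h1 := mem_normalizer_iff_cs.1 hg
    have h2 := cs_Nm_Ce hg
    rw [H25.KG.cs, Subgroup.map_sup]
    change H25.KG.cs g Q ⊔ H25.KG.cs g (Ce Q) = _
    rw [h1, h2]
  have hHb := blk_sup hM hQ hE
  have hD1 := dgh_of_top hM hB ht hE (Ce_le_Nm Q) hE.mem.2 (fun x hx => cs_Nm_Ce hx)
  have hD2 := dgh_of_top hM hB ht hHb hHN hHb.mem.2 hcs
  rw [inf_eq_left.2 (le_sup_left : Q ≤ Q ⊔ Ce Q)] at hD2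
  refine ⟨hD1, ?_⟩
  have hidx := (top_iff hM hQ rfl hHb hD2 (T := stb Q E) (fun g => Iff.rfl)).1 ht
  intro g hg hgE ⟨k, hk⟩
  have hS : IsPGroup p (Subgroup.zpowers g) := IsPGroup.of_card (by rw [Nat.card_zpowers, hk])
  have hST : Subgroup.zpowers g ≤ stb Q E := by
    rw [Subgroup.zpowers_le]; exact ⟨hg, hgE⟩
  exact le_of_relIndex (le_stb hE) stb_norm hST hS hidx (Subgroup.mem_zpowers g)

theorem top_backward (hM : IsPModular p M) {Q : Subgroup G} {E : MonoidAlgebra (KM M) G}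
    (hQ : IsPGroup p Q) (hE : IsBlk (Ce Q) E) (hD : DGH p (Ce Q) E (Q ⊓ Ce Q))
    (hst : ∀ g : G, g ∈ Nm Q → cnj g E = E → (∃ k : ℕ, orderOf g = p ^ k) → g ∈ Q ⊔ Ce Q) : Top p Q E := by
  rw [top_iff hM hQ rfl (blk_sup hM hQ hE) (dgh_sup hQ hE hD) (T := stb Q E) (fun g => Iff.rfl)]
  intro hidx
  obtain ⟨S, hS, hPS, hST, hSH⟩ := exists_not_le (le_stb hE) (le_sup_left.trans (le_stb hE)) hQ hidx
  apply hSH
  intro g hg
  obtain ⟨k, hk⟩ := IsPGroup.iff_orderOf.1 hS ⟨g, hg⟩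
  refine hst g (hST hg).1 (hST hg).2 ⟨k, ?_⟩
  rw [← hk, ← Subgroup.orderOf_coe]

end main

end Cfsg.Agent.H26.BPMax
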