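import Mathlib
import Cfsg.Agent.H26_Cliff
import Cfsg.Agent.H26_FS
import Cfsg.Agent.H3_CharEquiv

/-!
H26_FSClif: the Frobenius--Schur indicator of a character induced from an inertia group.
-/

set_option autoImplicit false
set_option linter.style.haveILetI false

namespace Cfsg.Agent.H26.FSClif

open Cfsg Cfsg.Agent.H3.CharIrr Cfsg.Agent.H3.CharComplete Cfsg.Agent.H3.CharInd Cfsg.Agent.H26.Basic
  Cfsg.Agent.H3.Clifford Cfsg.Agent.H3.CharMult Cfsg.Agent.H26.Cliff Cfsg.Agent.H26.FS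
open scoped ComplexConjugate

theorem irreducible_of_char {N : Type*} [Group N] [Finite N] {V : Type*} [AddCommGroup V] [Module ℂ V]
    [FiniteDimensional ℂ V] (ρ : Representation ℂ N V) (h : IsIrrCharacter N ρ.character) : ρ.IsIrreducible := by
  obtain ⟨n, σ, hσ, he⟩ := h
  obtain ⟨e⟩ := Cfsg.Agent.H3.CharEquiv.equiv_of_char_eq (Module.finrank ℂ (Fin n → ℂ)) σ ρ rfl he
  exact irreducible_of_equiv e hσ

variable {G : Type*} [Group G] [Fintype G] {N : Subgroup G} (hN : N.Normal) [Fintype N]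

/-- Schur orthogonality in operator form -/
theorem op_sum_zero {V : Type*} [AddCommGroup V] [Module ℂ V]
    [FiniteDimensional ℂ V] (ρ : Representation ℂ N V) {φ : N → ℂ} (hφ : IsIrrCharacter N φ)
    (hρ : ρ.character = φ) (hreal : ∀ n, conj (φ n) = φ n) {g : G} (hg : cj hN g φ ≠ φ) :
    ∑ n : N, ρ ((cjEquiv hN g).symm n) * ρ n = 0 := by
  classical
  have hirr : ρ.IsIrreducible := irreducible_of_char ρ (hρ ▸ hφ)
  have hcl : IsClassFunction N φ := IsIrr.isClass hφ
  have hfin : (Module.finrank ℂ V : ℂ) = φ 1 := by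
    rw [← hρ, Representation.char_one]
  have hf0 : (Module.finrank ℂ V : ℂ) ≠ 0 := by
    rw [hfin]; exact Cfsg.Agent.H26.Basic.one_ne ⟨φ, hφ⟩
  have hN0 : (Nat.card N : ℂ) ≠ 0 := card_cast_ne_zero
  -- the central idempotent
  have hE : ∑ m : N, φ m⁻¹ • ρ m = ((Nat.card N : ℂ) / (Module.finrank ℂ V : ℂ)) • (1 : Module.End ℂ V) := by
    have h1 := op_irr (fun m => φ m⁻¹) (by
      intro a b
      show φ (b * a * b⁻¹)⁻¹ = φ a⁻¹
      have h2 : (b * a * b⁻¹)⁻¹ = b * a⁻¹ * b⁻¹ := by group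
      rw [h2]; exact hcl _ _) ρ hirr
    have h2 : ∑ m : N, φ m⁻¹ * ρ.character m = (Nat.card N : ℂ) := by
      rw [hρ]
      have h3 := ci_irr_self hφ
      have h4 : classInner φ φ = (Nat.card N : ℂ)⁻¹ * ∑ m : N, φ m * conj (φ m) := rfl
      rw [h4] at h3
      have h5 : ∑ m : N, φ m⁻¹ * φ m = ∑ m : N, φ m * conj (φ m) := by
        refine Finset.sum_congr rfl fun m _ => ?_
        rw [IsChar.inv_eq_conj (IsIrr.isCharacter hφ), mul_comm]
      rw [h5]
      field_simp at h3
      exact h3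
    rw [h2] at h1
    have h3 : op (fun m => φ m⁻¹) ρ = ∑ m : N, φ m⁻¹ • ρ m := by
      ext v; rw [op_apply]; simp
    rw [← h3, h1]; rfl
  have hZ : ∑ m : N, cj hN g φ m • ρ m = 0 := by
    have h1 := op_irr (cj hN g φ) (cj_isClass hN g hcl) ρ hirr
    have h2 : ∑ m : N, cj hN g φ m * ρ.character m = 0 := by
      rw [hρ]
      have h3 := ci_irr_ne ((cj_isIrr hN g).2 hφ) hφ hg
      have h4 : classInner (cj hN g φ) φ = (Nat.card N : ℂ)⁻¹ * ∑ m : N, cj hN g φ m * conj (φ m) := rfl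
      rw [h4] at h3
      have h5 := (mul_eq_zero.1 h3).resolve_left (inv_ne_zero hN0)
      rw [← h5]
      exact Finset.sum_congr rfl fun m _ => by rw [hreal]
    rw [h2, zero_div, zero_smul] at h1
    have h3 : op (cj hN g φ) ρ = ∑ m : N, cj hN g φ m • ρ m := by
      ext v; rw [op_apply]; simp
    rw [← h3, h1]
  set γ := (cjEquiv hN g).symm with hγ
  have hk : ∀ k : N, ∑ n : N, φ (k⁻¹ * n) • ρ (γ n) = 0 := by
    intro k
    rw [← Equiv.sum_comp (cjEquiv hN g).toEquiv (fun n => φ (k⁻¹ * n) • ρ (γ n))]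
    rw [← Equiv.sum_comp (Equiv.mulLeft (γ k)) (fun n => φ (k⁻¹ * (cjEquiv hN g).toEquiv n) • ρ (γ ((cjEquiv hN g).toEquiv n)))]
    have h1 : ∀ m : N, φ (k⁻¹ * (cjEquiv hN g).toEquiv ((Equiv.mulLeft (γ k)) m)) • ρ (γ ((cjEquiv hN g).toEquiv ((Equiv.mulLeft (γ k)) m)))
        = ρ (γ k) * (cj hN g φ m • ρ m) := by
      intro m
      have e1 : (cjEquiv hN g).toEquiv ((Equiv.mulLeft (γ k)) m) = k * (cjEquiv hN g) m := by
        show (cjEquiv hN g) (γ k * m) = _
        rw [map_mul, hγ, MulEquiv.apply_symm_apply]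
      have e2 : γ (k * (cjEquiv hN g) m) = γ k * m := by
        rw [map_mul, hγ, MulEquiv.symm_apply_apply]
      rw [e1, e2, inv_mul_cancel_left, map_mul, cj_eq_comp, mul_smul_comm]
    rw [Finset.sum_congr rfl (fun m _ => h1 m), ← Finset.mul_sum, hZ, mul_zero]
  have hmain : ((Nat.card N : ℂ) / (Module.finrank ℂ V : ℂ)) • (∑ n : N, ρ (γ n) * ρ n) = 0 := by
    have h1 : ((Nat.card N : ℂ) / (Module.finrank ℂ V : ℂ)) • (∑ n : N, ρ (γ n) * ρ n) =
        (∑ n : N, ρ (γ n) * ρ n) * ∑ m : N, φ m⁻¹ • ρ m := by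
      rw [hE, mul_smul_comm, mul_one]
    rw [h1, Finset.sum_mul]
    have h2 : ∀ n : N, ρ (γ n) * ρ n * ∑ m : N, φ m⁻¹ • ρ m = ∑ k : N, φ (k⁻¹ * n) • (ρ (γ n) * ρ k) := by
      intro n
      rw [Finset.mul_sum, ← Equiv.sum_comp (Equiv.mulLeft n) (fun k => φ (k⁻¹ * n) • (ρ (γ n) * ρ k))]
      refine Finset.sum_congr rfl fun m _ => ?_
      show _ = φ ((n * m)⁻¹ * n) • (ρ (γ n) * ρ (n * m))
      have : (n * m)⁻¹ * n = m⁻¹ := by group
      rw [this, map_mul, mul_smul_comm, mul_assoc]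
    rw [Finset.sum_congr rfl (fun n _ => h2 n), Finset.sum_comm]
    apply Finset.sum_eq_zero
    intro k _
    have h3 : ∑ n : N, φ (k⁻¹ * n) • (ρ (γ n) * ρ k) = (∑ n : N, φ (k⁻¹ * n) • ρ (γ n)) * ρ k := by
      rw [Finset.sum_mul]
      exact Finset.sum_congr rfl fun n _ => (smul_mul_assoc _ _ _).symm
    rw [h3, hk, zero_mul]
  exact (smul_eq_zero.1 hmain).resolve_left (div_ne_zero hN0 hf0)

theorem sum_coset_zero (I : Subgroup G) (hNI : N ≤ I) {φ : N → ℂ} (hφ : IsIrrCharacter N φ)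
    (hreal : ∀ n, conj (φ n) = φ n) {η : I → ℂ} (hη : IsIrrCharacter I η)
    (hres : ∀ n : N, η (Subgroup.inclusion hNI n) = φ n) {g : G} (hg : cj hN g φ ≠ φ) :
    ∑ n : N, extendByZero I η (g * n * (g * n)) = 0 := by
  classical
  have e0 : ∀ n : N, g * n * (g * n) = g * g * (((cjEquiv hN g).symm n : N) * n : N) := by
    intro n
    have h1 : (((cjEquiv hN g).symm n : N) : G) = g⁻¹ * n * g := by
      have h2 : (cjEquiv hN g) ((cjEquiv hN g).symm n) = n := MulEquiv.apply_symm_apply _ _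
      have h3 := congrArg Subtype.val h2
      have h4 : ((cjEquiv hN g ((cjEquiv hN g).symm n) : N) : G) = g * ((cjEquiv hN g).symm n : N) * g⁻¹ := rfl
      rw [h4] at h3
      rw [← h3]; group
    rw [Subgroup.coe_mul, h1]; group
  by_cases hgg : g * g ∈ I
  · obtain ⟨k, D, hD, hDη⟩ := hη
    let ρ : Representation ℂ N (Fin k → ℂ) := D.comp (Subgroup.inclusion hNI)
    have hρ : ρ.character = φ := by
      funext n
      rw [← hres, ← hDη]; rfl
    have h1 := op_sum_zero hN ρ hφ hρ hreal hg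
    have h2 : ∀ n : N, extendByZero I η (g * n * (g * n)) =
        LinearMap.trace ℂ _ (D ⟨g * g, hgg⟩ * (ρ ((cjEquiv hN g).symm n) * ρ n)) := by
      intro n
      have hm : g * n * (g * n) ∈ I := by
        rw [e0]; exact I.mul_mem hgg (hNI (Subtype.property _))
      rw [ext_mem I η hm, ← hDη]
      show LinearMap.trace ℂ _ (D ⟨_, hm⟩) = _
      have h3 : (⟨g * n * (g * n), hm⟩ : I) = ⟨g * g, hgg⟩ * (Subgroup.inclusion hNI ((cjEquiv hN g).symm n) * Subgroup.inclusion hNI n) := by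
        apply Subtype.ext
        exact e0 n
      have h4 : D (⟨g * g, hgg⟩ * (Subgroup.inclusion hNI ((cjEquiv hN g).symm n) * Subgroup.inclusion hNI n)) =
          D ⟨g * g, hgg⟩ * (ρ ((cjEquiv hN g).symm n) * ρ n) := by
        rw [map_mul D, map_mul D]; rfl
      rw [h3, h4]
    rw [Finset.sum_congr rfl (fun n _ => h2 n), ← map_sum, ← Finset.mul_sum, h1, mul_zero, map_zero]
  · apply Finset.sum_eq_zero
    intro n _
    apply ext_not_mem
    intro hm
    rw [e0] at hm
    exact hgg ((Subgroup.mul_mem_cancel_right I (hNI (Subtype.property _))).1 hm)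

/-- the indicator of a character induced from the inertia group of a real character -/
theorem ind_indFun (I : Subgroup G) [Fintype I] {φ : N → ℂ} (hφ : IsIrrCharacter N φ)
    (hI : I = inertia hN φ) (hNI : N ≤ I)
    (hreal : ∀ n, conj (φ n) = φ n) {η : I → ℂ} (hη : IsIrrCharacter I η)
    (hres : ∀ n : N, η (Subgroup.inclusion hNI n) = φ n) :
    ind (indFun I η) = ind η := by
  classical
  set E := extendByZero I η with hEdef
  have h1 : ind (indFun I η) = (Nat.card I : ℂ)⁻¹ * ∑ g : G, E (g * g) := by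
    rw [ind]
    simp only [indFun]
    rw [← Finset.mul_sum, Finset.sum_comm]
    have h2 : ∀ x : G, ∑ g : G, E (x⁻¹ * (g * g) * x) = ∑ g : G, E (g * g) := by
      intro x
      rw [← Equiv.sum_comp (MulAut.conj x⁻¹).toEquiv (fun g => E (g * g))]
      refine Finset.sum_congr rfl fun g _ => ?_
      congr 1
      show _ = x⁻¹ * g * x⁻¹⁻¹ * (x⁻¹ * g * x⁻¹⁻¹)
      group
    rw [Finset.sum_congr rfl (fun x _ => h2 x), Finset.sum_const, nsmul_eq_mul, Finset.card_univ,
      ← Nat.card_eq_fintype_card]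
    have h3 : (Nat.card G : ℂ) ≠ 0 := card_cast_ne_zero
    field_simp
  rw [h1, ind]
  congr 1
  have h2 : ∑ g : G, E (g * g) = ∑ g : G, (if g ∈ I then E (g * g) else 0) + ∑ g : G, (if g ∈ I then 0 else E (g * g)) := by
    rw [← Finset.sum_add_distrib]
    refine Finset.sum_congr rfl fun g _ => ?_
    split_ifs <;> simp
  have h3 : ∑ g : G, (if g ∈ I then E (g * g) else 0) = ∑ t : I, η (t * t) := by
    have h4 : ∑ t : I, η (t * t) = ∑ t : I, E ((t : G) * t) := by
      refine Finset.sum_congr rfl fun t _ => ?_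
      exact (ext_coe I η (t * t)).symm
    rw [h4, ← Finset.sum_filter]
    exact Finset.sum_subtype (Finset.univ.filter (fun g => g ∈ I)) (p := fun g => g ∈ I) (by simp) (fun g => E (g * g))
  have h5 : ∑ g : G, (if g ∈ I then 0 else E (g * g)) = 0 := by
    have h6 : (Nat.card N : ℂ) * ∑ g : G, (if g ∈ I then 0 else E (g * g)) = 0 := by
      have h7 : ∀ n : N, ∑ g : G, (if g ∈ I then 0 else E (g * g)) = ∑ g : G, (if g ∈ I then 0 else E (g * n * (g * n))) := by
        intro n
        rw [← Equiv.sum_comp (Equiv.mulRight (n : G)) (fun g => if g ∈ I then 0 else E (g * g))]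
        refine Finset.sum_congr rfl fun g _ => ?_
        show (if g * n ∈ I then 0 else E (g * n * (g * n))) = _
        simp only [Subgroup.mul_mem_cancel_right I (hNI n.2)]
      have h8 : (Nat.card N : ℂ) * ∑ g : G, (if g ∈ I then 0 else E (g * g)) =
          ∑ n : N, ∑ g : G, (if g ∈ I then 0 else E (g * n * (g * n))) := by
        rw [← Finset.sum_congr rfl (fun n _ => h7 n), Finset.sum_const, nsmul_eq_mul, Finset.card_univ,
          ← Nat.card_eq_fintype_card]
      rw [h8, Finset.sum_comm]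
      apply Finset.sum_eq_zero
      intro g _
      by_cases hg : g ∈ I
      · apply Finset.sum_eq_zero
        intro n _
        rw [if_pos hg]
      · have h9 : ∑ n : N, (if g ∈ I then 0 else E (g * n * (g * n))) = ∑ n : N, E (g * n * (g * n)) :=
          Finset.sum_congr rfl fun n _ => if_neg hg
        rw [h9]
        apply sum_coset_zero hN I hNI hφ hreal hη hres
        rw [hI, mem_inertia] at hg
        exact hg
    exact (mul_eq_zero.1 h6).resolve_left card_cast_ne_zero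
  rw [h2, h3, h5, add_zero]

end Cfsg.Agent.H26.FSClif
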