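import Mathlib
import Cfsg.Agent.HL_FusCrit
import Cfsg.Agent.H1_Nilp

set_option autoImplicit false
set_option linter.unusedVariables false
set_option linter.unusedSectionVars false

/-!
Simplicity of the 2-fusion system of a finite group with an involution centraliser `2^{1+4}:A₅` (as in `J₂`, `J₃`).
-/

namespace Cfsg.Agent.H26.FusX

open Cfsg Cfsg.FusionSystem

/-! ### generalities -/

theorem A5_conj0 : ∀ a : alternatingGroup (Fin 5), a ≠ 1 → a * a * (a * a) = 1 →
    ∃ c : alternatingGroup (Fin 5), ((c * a * c⁻¹ : alternatingGroup (Fin 5)) : Equiv.Perm (Fin 5)) =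
      Equiv.swap 0 1 * Equiv.swap 2 3 := by
  decide +kernel

theorem A5_conj {a b : alternatingGroup (Fin 5)} (ha : a ≠ 1) (hb : b ≠ 1) (ha2 : a ^ 128 = 1) (hb2 : b ^ 128 = 1) :
    ∃ c : alternatingGroup (Fin 5), c * a * c⁻¹ = b := by
  have hc : Nat.card (alternatingGroup (Fin 5)) = 60 := by
    rw [nat_card_alternatingGroup]; simp; decide
  have h4 : ∀ x : alternatingGroup (Fin 5), x ^ 128 = 1 → x * x * (x * x) = 1 := by
    intro x hx
    have h60 : x ^ 60 = 1 := by rw [← hc]; exact pow_card_eq_one'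
    have := pow_gcd_eq_one.2 ⟨hx, h60⟩
    have h : Nat.gcd 128 60 = 4 := by decide
    rw [h] at this
    rw [← this]; simp [pow_succ, mul_assoc]
  obtain ⟨c, hc1⟩ := A5_conj0 a ha (h4 a ha2)
  obtain ⟨d, hd1⟩ := A5_conj0 b hb (h4 b hb2)
  refine ⟨d⁻¹ * c, ?_⟩
  have : d⁻¹ * c * a * (d⁻¹ * c)⁻¹ = d⁻¹ * (c * a * c⁻¹) * d := by group
  have h5 : c * a * c⁻¹ = d * b * d⁻¹ := Subtype.ext (hc1.trans hd1.symm)
  rw [this, h5]; group

variable {G : Type*} [Group G] [Finite G]

theorem mod5 (f : G) (hf : f ^ 5 = 1) (U : Subgroup G) (hU : ∀ u ∈ U, f * u * f⁻¹ ∈ U) :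
    Nat.card U ≡ Nat.card ↥(U ⊓ Subgroup.centralizer {f}) [MOD 5] := by
  classical
  haveI := Fintype.ofFinite U
  haveI : Fact (Nat.Prime 5) := ⟨by norm_num⟩
  let σ : Function.End U := fun u => ⟨f * u * f⁻¹, hU u u.2⟩
  have hp : ∀ n : ℕ, ∀ u : U, (((σ ^ n) u : U) : G) = f ^ n * u * (f ^ n)⁻¹ := by
    intro n
    induction n with
    | zero => intro u; rw [pow_zero, pow_zero, one_mul, inv_one, mul_one]; rfl
    | succ n ih =>
      intro u
      rw [pow_succ]
      show (((σ ^ n) (σ u) : U) : G) = _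
      rw [ih]
      show f ^ n * (f * u * f⁻¹) * (f ^ n)⁻¹ = _
      rw [pow_succ]; group
  have h1 : σ ^ 5 ^ 1 = 1 := by
    funext u
    apply Subtype.ext
    rw [hp, pow_one, hf, one_mul, inv_one, mul_one]; rfl
  have h2 := Equiv.Perm.card_fixedPoints_modEq (f := σ) (p := 5) (n := 1) h1
  rw [← Nat.card_eq_fintype_card, ← Nat.card_eq_fintype_card] at h2
  have h3 : Nat.card (Function.fixedPoints σ) = Nat.card ↥(U ⊓ Subgroup.centralizer {f}) := by
    refine Nat.card_congr ⟨fun u => ⟨u.1, u.1.2, ?_⟩, fun u => ⟨⟨u.1, u.2.1⟩, ?_⟩, fun u => rfl, fun u => rfl⟩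
    · show (u.1 : G) ∈ Subgroup.centralizer {f}
      rw [Subgroup.mem_centralizer_singleton_iff]
      have h4 : σ u.1 = u.1 := u.2
      have h5 := congrArg Subtype.val h4
      have h6 : f * (u.1 : G) * f⁻¹ = (u.1 : G) := h5
      rw [mul_inv_eq_iff_eq_mul] at h6
      first | exact h6 | exact h6.symm
    · have h4 : (u.1 : G) ∈ Subgroup.centralizer {f} := u.2.2
      rw [Subgroup.mem_centralizer_singleton_iff] at h4
      apply Subtype.ext
      show f * (u.1 : G) * f⁻¹ = (u.1 : G)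
      rw [mul_inv_eq_iff_eq_mul]
      first | exact h4 | exact h4.symm
  rw [← h3]; exact h2

theorem comm_iff {g z : G} : g ∈ Subgroup.centralizer {z} ↔ g * z = z * g := by
  rw [Subgroup.mem_centralizer_singleton_iff]

/-- an involution centraliser of the form `2^{1+4}:A₅` of odd index -/
structure Dat (z : G) (Q : Subgroup G) (ρ : Subgroup.centralizer {z} →* alternatingGroup (Fin 5)) : Prop where
  ne : z ≠ 1
  sq : z * z = 1
  mem : z ∈ Q
  le : Q ≤ Subgroup.centralizer {z}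
  card : Nat.card Q = 32
  comm : ∀ x ∈ Q, ∀ y ∈ Q, x * y = y * x ∨ x * y = z * (y * x)
  cen : ∀ x ∈ Q, (∀ y ∈ Q, x * y = y * x) → x = 1 ∨ x = z
  ccq : ∀ c ∈ Subgroup.centralizer {z}, (∀ q ∈ Q, c * q = q * c) → c ∈ Q
  surj : Function.Surjective ρ
  ker : ∀ c : Subgroup.centralizer {z}, ρ c = 1 ↔ (c : G) ∈ Q
  conj : ∃ g : G, g * z * g⁻¹ ∈ Q ∧ g * z * g⁻¹ ≠ z
  odd : ¬ 2 ∣ (Subgroup.centralizer {z}).index

variable {z : G} {Q : Subgroup G} {ρ : Subgroup.centralizer {z} →* alternatingGroup (Fin 5)}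

theorem Dat.nrm (D : Dat z Q ρ) {c x : G} (hc : c ∈ Subgroup.centralizer {z}) (hx : x ∈ Q) : c * x * c⁻¹ ∈ Q := by
  have h := D.ker ⟨c * x * c⁻¹, mul_mem (mul_mem hc (D.le hx)) (inv_mem hc)⟩
  refine h.1 ?_
  have e : (⟨c * x * c⁻¹, mul_mem (mul_mem hc (D.le hx)) (inv_mem hc)⟩ : Subgroup.centralizer {z}) =
      ⟨c, hc⟩ * ⟨x, D.le hx⟩ * ⟨c, hc⟩⁻¹ := rfl
  have h2 : ρ ⟨x, D.le hx⟩ = 1 := (D.ker ⟨x, D.le hx⟩).2 hx
  rw [e, map_mul, map_mul, h2, map_inv, mul_one, mul_inv_cancel]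

theorem Dat.card_C (D : Dat z Q ρ) : Nat.card (Subgroup.centralizer {z}) = 32 * 60 := by
  have hc : Nat.card (alternatingGroup (Fin 5)) = 60 := by
    rw [nat_card_alternatingGroup]; simp; decide
  have h1 := Subgroup.card_mul_index ρ.ker
  have h2 : ρ.ker = Q.subgroupOf (Subgroup.centralizer {z}) := by
    ext c
    rw [MonoidHom.mem_ker, D.ker, Subgroup.mem_subgroupOf]
  rw [Subgroup.index_ker, MonoidHom.range_eq_top.2 D.surj, Subgroup.card_top, hc, h2,
    Nat.card_congr (Subgroup.subgroupOfEquivOfLe D.le).toEquiv, D.card] at h1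
  exact h1.symm

/-- a proper invariant subgroup of `Q` is contained in the centre -/
theorem Dat.irr (D : Dat z Q ρ) {U : Subgroup G} (hU : U ≤ Q) (hz : z ∈ U)
    (hinv : ∀ c ∈ Subgroup.centralizer {z}, ∀ u ∈ U, c * u * c⁻¹ ∈ U) {u : G} (hu : u ∈ U) (hu1 : u ≠ 1) (huz : u ≠ z) :
    Q ≤ U := by
  classical
  haveI : Fact (Nat.Prime 5) := ⟨by norm_num⟩
  haveI : Fact (Nat.Prime 2) := ⟨by norm_num⟩
  obtain ⟨f, hf⟩ := exists_prime_orderOf_dvd_card' (G := Subgroup.centralizer {z}) 5 (by rw [D.card_C]; norm_num)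
  have hf5 : (f : G) ^ 5 = 1 := by
    have := pow_orderOf_eq_one f
    rw [hf] at this
    exact congrArg Subtype.val this
  have hQ2 : IsPGroup 2 Q := IsPGroup.of_card (n := 5) (by rw [D.card]; norm_num)
  have hfQ : (f : G) ∉ Q := by
    intro h
    have h1 : (f : G) ^ 32 = 1 := by
      have h0 : (⟨(f : G), h⟩ : Q) ^ Nat.card Q = 1 := pow_card_eq_one'
      rw [D.card] at h0
      exact congrArg Subtype.val h0
    have h2 : (f : G) = 1 := by
      have h3 := pow_gcd_eq_one.2 ⟨hf5, h1⟩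
      have h4 : Nat.gcd 5 32 = 1 := by decide
      rwa [h4, pow_one] at h3
    have h3 : f = 1 := Subtype.ext h2
    rw [h3, orderOf_one] at hf
    norm_num at hf
  -- the centraliser of f in Q
  have key : ∀ V : Subgroup G, V ≤ Q → ∃ k ≤ 5, Nat.card V = 2 ^ k := by
    intro V hV
    have h1 : Nat.card V ∣ 2 ^ 5 := by
      have := Subgroup.card_dvd_of_le hV
      rw [D.card] at this
      exact this
    obtain ⟨k, hk, h⟩ := (Nat.dvd_prime_pow Nat.prime_two).1 h1
    exact ⟨k, hk, h⟩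
  have hQf : Nat.card ↥(Q ⊓ Subgroup.centralizer {(f : G)}) = 2 := by
    have h1 := mod5 (f : G) hf5 Q fun u hu => D.nrm f.2 hu
    obtain ⟨k, hk, h2⟩ := key (Q ⊓ Subgroup.centralizer {(f : G)}) inf_le_left
    rw [D.card, h2] at h1
    rw [h2]
    have h3 : k ≠ 5 := by
      rintro rfl
      have h4 : Q ⊓ Subgroup.centralizer {(f : G)} = Q := Subgroup.eq_of_le_of_card_ge inf_le_left (by rw [D.card, h2]; norm_num)
      apply hfQ
      apply D.ccq _ f.2
      intro q hq
      rw [← h4] at hq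
      have := comm_iff.1 hq.2
      exact this.symm
    interval_cases k
    all_goals first | rfl | exact absurd rfl h3 | (exfalso; revert h1; decide)
  -- the centraliser of f in U
  have hle : Nat.card ↥(U ⊓ Subgroup.centralizer {(f : G)}) ≤ 2 := by
    rw [← hQf]
    exact Subgroup.card_le_of_le (inf_le_inf_right _ hU)
  have hge : 2 ≤ Nat.card ↥(U ⊓ Subgroup.centralizer {(f : G)}) := by
    have h1 : Subgroup.zpowers z ≤ U ⊓ Subgroup.centralizer {(f : G)} := by
      rw [Subgroup.zpowers_le]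
      refine ⟨hz, ?_⟩
      show z ∈ Subgroup.centralizer {(f : G)}
      rw [comm_iff]
      exact (comm_iff.1 f.2).symm
    have h2 := Subgroup.card_le_of_le h1
    have h3 : orderOf z = 2 := orderOf_eq_prime (by rw [pow_two]; exact D.sq) D.ne
    rw [Nat.card_zpowers, h3] at h2
    exact h2
  have h1 := mod5 (f : G) hf5 U fun u hu => hinv _ f.2 u hu
  rw [le_antisymm hle hge] at h1
  obtain ⟨k, hk, h2⟩ := key U hU
  have h3 : k = 1 ∨ k = 5 := by
    rw [h2] at h1
    interval_cases k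
    all_goals first | (left; rfl) | (right; rfl) | (exfalso; revert h1; decide)
  rcases h3 with rfl | rfl
  · exfalso
    have h4 : ({1, z, u} : Finset G).card = 3 := by
      rw [Finset.card_eq_three]
      exact ⟨1, z, u, D.ne.symm, hu1.symm, huz.symm, rfl⟩
    have h5 : (({1, z, u} : Finset G) : Set G) ⊆ (U : Set G) := by
      intro x hx
      simp only [Finset.coe_insert, Finset.coe_singleton, Set.mem_insert_iff, Set.mem_singleton_iff] at hx
      rcases hx with rfl | rfl | rfl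
      · exact one_mem _
      · exact hz
      · exact hu
    have h6 := Set.ncard_le_ncard h5 (Set.toFinite _)
    rw [Set.ncard_coe_finset, h4] at h6
    have h7 : (U : Set G).ncard = Nat.card U := rfl
    rw [h7, h2] at h6
    norm_num at h6
  · exact (Subgroup.eq_of_le_of_card_ge hU (by rw [D.card, h2]; norm_num)).ge

/-- the centraliser in `Q` of a noncentral element is not abelian -/
theorem Dat.nonab (D : Dat z Q ρ) {z' : G} (hz' : z' ∈ Q) (h1 : z' ≠ 1) (h2 : z' ≠ z) :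
    ∃ x ∈ Q, ∃ y ∈ Q, x * z' = z' * x ∧ y * z' = z' * y ∧ x * y ≠ y * x := by
  by_contra hcon
  push Not at hcon
  have hzz : ∀ x ∈ Q, z * x = x * z := fun x hx => (comm_iff.1 (D.le hx)).symm
  obtain ⟨w, hw, hwz⟩ : ∃ w ∈ Q, w * z' ≠ z' * w := by
    by_contra h
    push Not at h
    rcases D.cen z' hz' fun y hy => (h y hy).symm with h3 | h3
    · exact h1 h3
    · exact h2 h3
  -- two elements not commuting with `a` have a product commuting with `a`
  have hprod : ∀ a ∈ Q, ∀ x ∈ Q, ∀ y ∈ Q, x * a ≠ a * x → y * a ≠ a * y → (x * y) * a = a * (x * y) := by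
    intro a ha x hx y hy h3 h4
    have h5 := (D.comm x hx a ha).resolve_left h3
    have h6 := (D.comm y hy a ha).resolve_left h4
    calc x * y * a = x * (y * a) := by group
      _ = x * (z * (a * y)) := by rw [h6]
      _ = (x * z) * (a * y) := by group
      _ = (z * x) * (a * y) := by rw [hzz x hx]
      _ = z * (x * a) * y := by group
      _ = z * (z * (a * x)) * y := by rw [h5]
      _ = (z * z) * (a * (x * y)) := by group
      _ = a * (x * y) := by rw [D.sq, one_mul]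
  -- the commuting elements
  obtain ⟨d0, hd0Q, hd0, hd0'⟩ : ∃ d0 ∈ Q, d0 * z' = z' * d0 ∧
      ∀ d ∈ Q, d * z' = z' * d → d * w = w * d ∨ (d0⁻¹ * d) * w = w * (d0⁻¹ * d) := by
    by_cases h : ∃ d0 ∈ Q, d0 * z' = z' * d0 ∧ d0 * w ≠ w * d0
    · obtain ⟨d0, h3, h4, h5⟩ := h
      refine ⟨d0, h3, h4, fun d hd hdz => ?_⟩
      by_cases h6 : d * w = w * d
      · exact Or.inl h6
      · right
        apply hprod w hw d0⁻¹ (inv_mem h3) d hd _ h6
        intro h7
        apply h5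
        have : d0 * (d0⁻¹ * w) * d0 = d0 * (w * d0⁻¹) * d0 := by rw [h7]
        have e1 : d0 * (d0⁻¹ * w) * d0 = w * d0 := by group
        have e2 : d0 * (w * d0⁻¹) * d0 = d0 * w := by group
        rw [e1, e2] at this
        exact this.symm
    · push Not at h
      exact ⟨1, one_mem _, by rw [one_mul, mul_one], fun d hd hdz => Or.inl (h d hd hdz)⟩
  have hcent : ∀ d ∈ Q, d * z' = z' * d → d * w = w * d → d = 1 ∨ d = z := by
    intro d hd hdz hdw
    apply D.cen d hd
    intro y hy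
    by_cases h3 : y * z' = z' * y
    · exact hcon d hd y hy hdz h3
    · have h4 := hprod z' hz' y hy w hw h3 hwz
      have h5 := hcon d hd (y * w) (mul_mem hy hw) hdz h4
      have h6 : d * y * w = y * d * w := by
        calc d * y * w = d * (y * w) := by group
          _ = y * w * d := h5
          _ = y * (w * d) := by group
          _ = y * (d * w) := by rw [hdw]
          _ = y * d * w := by group
      exact mul_right_cancel h6
  have hall : ∀ q ∈ Q, ∃ e : Bool × Bool × Bool, q = (bif e.2.1 then d0 else 1) * (bif e.1 then z else 1) * (bif e.2.2 then w⁻¹ else 1) := by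
    have hD : ∀ d ∈ Q, d * z' = z' * d → ∃ e : Bool × Bool, d = (bif e.2 then d0 else 1) * (bif e.1 then z else 1) := by
      intro d hd hdz
      rcases hd0' d hd hdz with h3 | h3
      · rcases hcent d hd hdz h3 with h4 | h4
        · exact ⟨(false, false), by simpa using h4⟩
        · exact ⟨(true, false), by simpa using h4⟩
      · have h5 : d0⁻¹ * d * z' = z' * (d0⁻¹ * d) := by
          have h6 : d0⁻¹ * z' = z' * d0⁻¹ := by
            rw [inv_mul_eq_iff_eq_mul, ← mul_assoc, hd0, mul_inv_cancel_right]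
          rw [mul_assoc, hdz, ← mul_assoc, h6, mul_assoc]
        rcases hcent _ (mul_mem (inv_mem hd0Q) hd) h5 h3 with h4 | h4
        · refine ⟨(false, true), ?_⟩
          rw [inv_mul_eq_iff_eq_mul] at h4
          simpa using h4
        · refine ⟨(true, true), ?_⟩
          rw [inv_mul_eq_iff_eq_mul] at h4
          simpa using h4
    intro q hq
    by_cases h3 : q * z' = z' * q
    · obtain ⟨e, he⟩ := hD q hq h3
      exact ⟨(e.1, e.2, false), by simpa using he⟩
    · have h4 := hprod z' hz' q hq w hw h3 hwz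
      obtain ⟨e, he⟩ := hD (q * w) (mul_mem hq hw) h4
      refine ⟨(e.1, e.2, true), ?_⟩
      simp only [cond_true]
      rw [← he]; group
  choose! E hE using hall
  have hinj : Function.Injective (fun q : Q => E q.1) := by
    intro a b hab
    simp only at hab
    apply Subtype.ext
    rw [hE a.1 a.2, hE b.1 b.2, hab]
  have h8 := Nat.card_le_card_of_injective _ hinj
  rw [D.card] at h8
  simp at h8

/-- fusion of `Q` outside of `Q` -/
theorem Dat.out (D : Dat z Q ρ) : ∃ u ∈ Q, ∃ g : G, g * u * g⁻¹ ∈ Subgroup.centralizer {z} ∧ g * u * g⁻¹ ∉ Q := by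
  obtain ⟨g, hg, hgz⟩ := D.conj
  have h1 : g * z * g⁻¹ ≠ 1 := by
    intro h
    rw [mul_inv_eq_one] at h
    exact D.ne (mul_left_cancel (a := g) (by rw [h, mul_one]))
  obtain ⟨x, hx, y, hy, hxz, hyz, hxy⟩ := D.nonab hg h1 hgz
  have hcent : ∀ x : G, x * (g * z * g⁻¹) = g * z * g⁻¹ * x → g⁻¹ * x * g⁻¹⁻¹ ∈ Subgroup.centralizer {z} := by
    intro x hx
    rw [comm_iff, inv_inv]
    calc g⁻¹ * x * g * z = g⁻¹ * (x * (g * z * g⁻¹)) * g := by group
      _ = g⁻¹ * (g * z * g⁻¹ * x) * g := by rw [hx]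
      _ = z * (g⁻¹ * x * g) := by group
  by_contra hcon
  push Not at hcon
  have h2 := hcon x hx g⁻¹ (hcent x hxz)
  have h3 := hcon y hy g⁻¹ (hcent y hyz)
  have h4 := (D.comm x hx y hy).resolve_left hxy
  rcases D.comm _ h2 _ h3 with h5 | h5
  · apply hxy
    have : g * (g⁻¹ * x * g⁻¹⁻¹ * (g⁻¹ * y * g⁻¹⁻¹)) * g⁻¹ = g * (g⁻¹ * y * g⁻¹⁻¹ * (g⁻¹ * x * g⁻¹⁻¹)) * g⁻¹ := by rw [h5]
    have e1 : g * (g⁻¹ * x * g⁻¹⁻¹ * (g⁻¹ * y * g⁻¹⁻¹)) * g⁻¹ = x * y := by group
    have e2 : g * (g⁻¹ * y * g⁻¹⁻¹ * (g⁻¹ * x * g⁻¹⁻¹)) * g⁻¹ = y * x := by group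
    rw [e1, e2] at this
    exact this
  · apply hgz
    have : g * (g⁻¹ * x * g⁻¹⁻¹ * (g⁻¹ * y * g⁻¹⁻¹)) * g⁻¹ = g * (z * (g⁻¹ * y * g⁻¹⁻¹ * (g⁻¹ * x * g⁻¹⁻¹))) * g⁻¹ := by rw [h5]
    have e1 : g * (g⁻¹ * x * g⁻¹⁻¹ * (g⁻¹ * y * g⁻¹⁻¹)) * g⁻¹ = x * y := by group
    have e2 : g * (z * (g⁻¹ * y * g⁻¹⁻¹ * (g⁻¹ * x * g⁻¹⁻¹))) * g⁻¹ = (g * z * g⁻¹) * (y * x) := by group
    rw [e1, e2, h4] at this
    exact (mul_right_cancel this).symm

theorem Dat.exists_syl (D : Dat z Q ρ) : ∃ S0 : Sylow 2 G, (S0 : Subgroup G) ≤ Subgroup.centralizer {z} ∧ Q ≤ (S0 : Subgroup G) ∧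
    (∀ x ∈ Subgroup.centralizer {z}, (∃ k, x ^ 2 ^ k = 1) → ∃ c ∈ Subgroup.centralizer {z}, c * x * c⁻¹ ∈ (S0 : Subgroup G)) := by
  haveI : Fact (Nat.Prime 2) := ⟨by norm_num⟩
  let P : Sylow 2 (Subgroup.centralizer {z}) := default
  have hPG : IsPGroup 2 ((P : Subgroup (Subgroup.centralizer {z})).map (Subgroup.centralizer {z}).subtype) :=
    P.isPGroup'.map _
  have hidx : ¬ 2 ∣ ((P : Subgroup (Subgroup.centralizer {z})).map (Subgroup.centralizer {z}).subtype).index := by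
    rw [Subgroup.index_map_subtype]
    intro h
    rcases (Nat.Prime.dvd_mul Nat.prime_two).1 h with h1 | h1
    · exact P.not_dvd_index h1
    · exact D.odd h1
  let S0 : Sylow 2 G := hPG.toSylow hidx
  have hS0 : (S0 : Subgroup G) = (P : Subgroup (Subgroup.centralizer {z})).map (Subgroup.centralizer {z}).subtype := rfl
  have hQP : Q.subgroupOf (Subgroup.centralizer {z}) ≤ (P : Subgroup (Subgroup.centralizer {z})) := by
    haveI hn : (Q.subgroupOf (Subgroup.centralizer {z})).Normal := by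
      constructor
      intro x hx c
      exact D.nrm c.2 hx
    have hQ2 : IsPGroup 2 (Q.subgroupOf (Subgroup.centralizer {z})) := by
      refine IsPGroup.of_card (n := 5) ?_
      rw [Nat.card_congr (Subgroup.subgroupOfEquivOfLe D.le).toEquiv, D.card]; norm_num
    have h1 := IsPGroup.to_sup_of_normal_left hQ2 P.isPGroup'
    have h2 := P.is_maximal' h1 le_sup_right
    rw [← h2]; exact le_sup_left
  refine ⟨S0, ?_, ?_, ?_⟩
  · rw [hS0]
    rintro _ ⟨x, -, rfl⟩; exact x.2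
  · intro q hq
    rw [hS0]
    exact ⟨⟨q, D.le hq⟩, hQP hq, rfl⟩
  · rintro x hx ⟨k, hk⟩
    have h1 : IsPGroup 2 (Subgroup.zpowers (⟨x, hx⟩ : Subgroup.centralizer {z})) := by
      rintro ⟨_, j, rfl⟩
      refine ⟨k, Subtype.ext ?_⟩
      have h0 : (⟨x, hx⟩ : Subgroup.centralizer {z}) ^ 2 ^ k = 1 := Subtype.ext hk
      show ((⟨x, hx⟩ : Subgroup.centralizer {z}) ^ j) ^ 2 ^ k = 1
      rw [← zpow_natCast, ← zpow_mul, mul_comm, zpow_mul, zpow_natCast, h0, one_zpow]
    obtain ⟨R, hR⟩ := h1.exists_le_sylow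
    obtain ⟨c, hc⟩ := MulAction.exists_smul_eq (Subgroup.centralizer {z}) R P
    refine ⟨c, c.2, ?_⟩
    rw [hS0]
    refine ⟨c * ⟨x, hx⟩ * c⁻¹, ?_, rfl⟩
    show c * ⟨x, hx⟩ * c⁻¹ ∈ (P : Subgroup (Subgroup.centralizer {z}))
    rw [← hc, Sylow.coe_subgroup_smul]
    exact Subgroup.smul_mem_pointwise_smul _ (MulAut.conj c) _ (hR (Subgroup.mem_zpowers _))

theorem Dat.simple (D : Dat z Q ρ) (S : Sylow 2 G) : (groupFusionSystem (S : Subgroup G)).IsSimple 2 := by
  haveI : Fact (Nat.Prime 2) := ⟨by norm_num⟩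
  obtain ⟨S0, hSC, hQS, hconj⟩ := D.exists_syl
  refine Cfsg.Agent.HL.FusCrit.simple_conj S0 S ?_
  have hpow : ∀ s ∈ (S0 : Subgroup G), s ^ 128 = 1 := by
    intro s hs
    have h1 : Nat.card S0 ∣ 1920 := by
      have := Subgroup.card_dvd_of_le hSC
      rw [D.card_C] at this
      exact this
    obtain ⟨k, hk⟩ := S0.isPGroup'.exists_card_eq
    have hk' : Nat.card S0 = 2 ^ k := hk
    have h2 : Nat.card S0 ∣ 128 := by
      rw [hk'] at h1 ⊢
      have h3 : k ≤ 7 := by
        by_contra h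
        push Not at h
        have h4 : 2 ^ 8 ∣ 1920 := (pow_dvd_pow 2 h).trans h1
        revert h4; decide
      exact (pow_dvd_pow 2 h3).trans (by norm_num)
    have h0 : (⟨s, hs⟩ : S0) ^ Nat.card S0 = 1 := pow_card_eq_one'
    obtain ⟨m, hm⟩ := h2
    have h5 : s ^ Nat.card S0 = 1 := congrArg Subtype.val h0
    rw [hm, pow_mul, h5, one_pow]
  -- the element of `S0 \ Q` fused into `Q`
  obtain ⟨u, hu, g, hgC, hgQ⟩ := D.out
  obtain ⟨c, hc, hcS⟩ := hconj _ hgC ⟨5, by
    have h0 : (⟨u, hu⟩ : Q) ^ Nat.card Q = 1 := pow_card_eq_one'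
    rw [D.card] at h0
    have h5 : u ^ 32 = 1 := congrArg Subtype.val h0
    rw [conj_pow]
    show g * u ^ 32 * g⁻¹ = 1
    rw [h5, mul_one, mul_inv_cancel]⟩
  obtain ⟨x, hx⟩ : ∃ x, x = c * g * u * (c * g)⁻¹ := ⟨_, rfl⟩
  have hxS : x ∈ (S0 : Subgroup G) := by
    have e : c * (g * u * g⁻¹) * c⁻¹ = x := by rw [hx]; group
    rwa [e] at hcS
  have hxQ : x ∉ Q := by
    intro h
    apply hgQ
    have := D.nrm (inv_mem hc) h
    have e : c⁻¹ * x * c⁻¹⁻¹ = g * u * g⁻¹ := by rw [hx]; group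
    rwa [e] at this
  have hρx : ρ ⟨x, hSC hxS⟩ ≠ 1 := fun h => hxQ ((D.ker _).1 h)
  have hρpow : ∀ s (hs : s ∈ (S0 : Subgroup G)), ρ ⟨s, hSC hs⟩ ^ 128 = 1 := by
    intro s hs
    rw [← map_pow]
    have : (⟨s, hSC hs⟩ : Subgroup.centralizer {z}) ^ 128 = 1 := Subtype.ext (hpow s hs)
    rw [this, map_one]
  have hS1 : (S0 : Subgroup G) ≠ ⊥ := by
    intro h
    have := hQS D.mem
    rw [h, Subgroup.mem_bot] at this
    exact D.ne this
  apply Cfsg.Agent.HL.FusCrit.simple_gfs S0 hS1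
  · intro T hTS hT
    by_cases hT1 : T = ⊥
    · exact Or.inl hT1
    right
    have hTn : ∀ s ∈ (S0 : Subgroup G), ∀ t ∈ T, s * t * s⁻¹ ∈ T := fun s hs t ht =>
      hT t ht s (mul_mem (mul_mem hs (hTS ht)) (inv_mem hs))
    obtain ⟨e, heT, he1, hec⟩ : ∃ e ∈ T, e ≠ 1 ∧ ∀ s ∈ (S0 : Subgroup G), e * s = s * e := by
      let T' : Subgroup (S0 : Subgroup G) := T.subgroupOf (S0 : Subgroup G)
      have hT'n : T'.Normal := by
        constructor
        intro t ht s
        exact hTn s s.2 t ht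
      have hT'ne : T' ≠ ⊥ := by
        intro h
        apply hT1
        rw [eq_bot_iff]
        intro t ht
        have : (⟨t, hTS ht⟩ : (S0 : Subgroup G)) ∈ T' := ht
        rw [h, Subgroup.mem_bot] at this
        rw [Subgroup.mem_bot]
        exact congrArg Subtype.val this
      have hp2 : IsPGroup 2 (S0 : Subgroup G) := S0.isPGroup'
      have : Group.IsNilpotent (S0 : Subgroup G) := hp2.isNilpotent
      have hnt := Cfsg.Agent.H1.Nilp.normal_inf_center_ne_bot T' hT'ne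
      obtain ⟨⟨c, hc⟩, hc1⟩ := Subgroup.ne_bot_iff_exists_ne_one.1 hnt
      refine ⟨c, hc.1, fun h => hc1 (Subtype.ext (Subtype.ext h)), fun s hs => ?_⟩
      have := Subgroup.mem_center_iff.1 hc.2 ⟨s, hs⟩
      exact (congrArg Subtype.val this).symm
    have hez : e = z := by
      have h1 := D.ccq e (hSC (hTS heT)) fun q hq => hec q (hQS hq)
      exact (D.cen e h1 fun y hy => hec y (hQS hy)).resolve_left he1
    have hzT : z ∈ T := hez ▸ heT
    obtain ⟨g', hg', hg'z⟩ := D.conj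
    have hQT : Q ≤ T := by
      have h1 := D.irr (U := T ⊓ Q) inf_le_right ⟨hzT, D.mem⟩ (by
        rintro c hc v ⟨hv1, hv2⟩
        have h2 := D.nrm hc hv2
        exact ⟨hT v hv1 c (hQS h2), h2⟩) (u := g' * z * g'⁻¹) ⟨hT z hzT g' (hQS hg'), hg'⟩ (by
        intro h
        rw [mul_inv_eq_one] at h
        exact D.ne (mul_left_cancel (a := g') (by rw [h, mul_one]))) hg'z
      exact h1.trans inf_le_left
    have hxT : x ∈ T := by
      rw [hx]
      apply hT u (hQT hu) (c * g)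
      rw [← hx]; exact hxS
    apply le_antisymm hTS
    intro s hs
    by_cases hsQ : s ∈ Q
    · exact hQT hsQ
    have hρs : ρ ⟨s, hSC hs⟩ ≠ 1 := fun h => hsQ ((D.ker _).1 h)
    obtain ⟨a, ha⟩ := A5_conj hρx hρs (hρpow x hxS) (hρpow s hs)
    obtain ⟨d, rfl⟩ := D.surj a
    have h1 : ρ ((⟨s, hSC hs⟩ : Subgroup.centralizer {z})⁻¹ * (d * ⟨x, hSC hxS⟩ * d⁻¹)) = 1 := by
      rw [map_mul, map_mul, map_mul, map_inv, map_inv, ha, inv_mul_cancel]
    have h2 := (D.ker _).1 h1
    have h3 : s⁻¹ * ((d : G) * x * (d : G)⁻¹) ∈ Q := h2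
    have h4 : (d : G) * x * (d : G)⁻¹ ∈ (S0 : Subgroup G) := by
      have := mul_mem hs (hQS h3)
      rwa [mul_inv_cancel_left] at this
    have h5 := hT x hxT d h4
    have h6 := mul_mem h5 (inv_mem (hQT h3))
    have e : (d : G) * x * (d : G)⁻¹ * (s⁻¹ * ((d : G) * x * (d : G)⁻¹))⁻¹ = s := by group
    rwa [e] at h6
  · -- the normaliser of the Sylow subgroup
    have hCM : Subgroup.centralizer {z} ≤ Subgroup.closure {g : G | g ∈ Subgroup.normalizer (Q : Set G) ∧ ∃ k : ℕ, orderOf g = 2 ^ k} := by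
      have hCN : Subgroup.centralizer {z} ≤ Subgroup.normalizer (Q : Set G) := by
        intro c hc
        rw [Subgroup.mem_normalizer_iff]
        intro h
        refine ⟨fun hh => D.nrm hc hh, fun hh => ?_⟩
        have := D.nrm (inv_mem hc) hh
        have e : c⁻¹ * (c * h * c⁻¹) * c⁻¹⁻¹ = h := by group
        rwa [e] at this
      let M : Subgroup G := Subgroup.closure {g : G | g ∈ Subgroup.centralizer {z} ∧ ∃ k : ℕ, orderOf g = 2 ^ k}
      have hM1 : M ≤ Subgroup.closure {g : G | g ∈ Subgroup.normalizer (Q : Set G) ∧ ∃ k : ℕ, orderOf g = 2 ^ k} :=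
        Subgroup.closure_mono fun g hg => ⟨hCN hg.1, hg.2⟩
      refine le_trans ?_ hM1
      have hS0M : (S0 : Subgroup G) ≤ M := by
        intro s hs
        apply Subgroup.subset_closure
        refine ⟨hSC hs, ?_⟩
        have h1 : orderOf s ∣ 2 ^ 7 := orderOf_dvd_of_pow_eq_one (hpow s hs)
        obtain ⟨k, -, h⟩ := (Nat.dvd_prime_pow Nat.prime_two).1 h1
        exact ⟨k, h⟩
      have hMn : (M.subgroupOf (Subgroup.centralizer {z})).Normal := by
        constructor
        intro m hm c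
        show (c : G) * (m : G) * (c : G)⁻¹ ∈ M
        have hm' : (m : G) ∈ M := hm
        have hle : M ≤ M.comap (MulAut.conj (c : G)).toMonoidHom := by
          show Subgroup.closure _ ≤ _
          rw [Subgroup.closure_le]
          rintro y ⟨hy1, k, hk⟩
          show (c : G) * y * (c : G)⁻¹ ∈ M
          apply Subgroup.subset_closure
          refine ⟨mul_mem (mul_mem c.2 hy1) (inv_mem c.2), k, ?_⟩
          rw [← hk]
          exact orderOf_injective (MulAut.conj (c : G)).toMonoidHom (MulAut.conj (c : G)).injective y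
        exact hle hm'
      have hmap : ((M.subgroupOf (Subgroup.centralizer {z})).map ρ).Normal := hMn.map ρ D.surj
      haveI : IsSimpleGroup (alternatingGroup (Fin 5)) := alternatingGroup.isSimpleGroup_five
      have htop : (M.subgroupOf (Subgroup.centralizer {z})).map ρ = ⊤ := by
        refine hmap.eq_bot_or_eq_top.resolve_left fun h => hρx ?_
        have : ρ ⟨x, hSC hxS⟩ ∈ (M.subgroupOf (Subgroup.centralizer {z})).map ρ := ⟨⟨x, hSC hxS⟩, hS0M hxS, rfl⟩
        rw [h, Subgroup.mem_bot] at this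
        exact this
      intro d hd
      have h1 : ρ ⟨d, hd⟩ ∈ (M.subgroupOf (Subgroup.centralizer {z})).map ρ := by rw [htop]; trivial
      obtain ⟨m, hm, hmd⟩ := h1
      have h2 : ρ (m⁻¹ * ⟨d, hd⟩) = 1 := by rw [map_mul, map_inv, hmd, inv_mul_cancel]
      have h3 : (m : G)⁻¹ * d ∈ Q := (D.ker _).1 h2
      have h4 := mul_mem (show (m : G) ∈ M from hm) (hS0M (hQS h3))
      rwa [mul_inv_cancel_left] at h4
    intro h hh
    apply Subgroup.subset_closure
    right
    refine ⟨hh, Q, hQS, ?_, ?_, ?_⟩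
    · intro s hs
      rw [Subgroup.mem_normalizer_iff]
      intro q
      refine ⟨fun hq => D.nrm (hSC hs) hq, fun hq => ?_⟩
      have := D.nrm (inv_mem (hSC hs)) hq
      have e : s⁻¹ * (s * q * s⁻¹) * s⁻¹⁻¹ = q := by group
      rwa [e] at this
    · rintro y ⟨hy1, hy2⟩
      apply D.ccq y (hSC hy1)
      intro q hq
      exact ((Subgroup.mem_centralizer_iff.1 hy2) q hq).symm
    · apply hCM
      have h1 : h * z * h⁻¹ ∈ (S0 : Subgroup G) := (Subgroup.mem_normalizer_iff.1 hh z).1 (hQS D.mem)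
      have h2 : ∀ s ∈ (S0 : Subgroup G), h * z * h⁻¹ * s = s * (h * z * h⁻¹) := by
        intro s hs
        have h3 : h⁻¹ * s * h ∈ (S0 : Subgroup G) := by
          have := (Subgroup.mem_normalizer_iff.1 (inv_mem hh) s).1 hs
          rwa [inv_inv] at this
        have h4 := comm_iff.1 (hSC h3)
        calc h * z * h⁻¹ * s = h * (z * (h⁻¹ * s * h)) * h⁻¹ := by group
          _ = h * (h⁻¹ * s * h * z) * h⁻¹ := by rw [h4]
          _ = s * (h * z * h⁻¹) := by group
      have h3 := D.ccq _ (hSC h1) fun q hq => h2 q (hQS hq)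
      have h4 : h * z * h⁻¹ = z := by
        refine (D.cen _ h3 fun y hy => h2 y (hQS hy)).resolve_left ?_
        intro h5
        rw [mul_inv_eq_one] at h5
        exact D.ne (mul_left_cancel (a := h) (by rw [h5, mul_one]))
      rw [comm_iff]
      rwa [mul_inv_eq_iff_eq_mul] at h4

end Cfsg.Agent.H26.FusX
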