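import Mathlib
import Cfsg.Agent.H26_FusX
import Cfsg.Agent.H20_J2Ext4

set_option autoImplicit false
set_option linter.unusedVariables false
set_option linter.unusedSectionVars false

namespace Cfsg.Agent.H26.FusX

open Cfsg Cfsg.FusionSystem

theorem Dat.transfer {G H : Type*} [Group G] [Finite G] [Group H] [Finite H] (e : G ≃* H) {z : H} {Q : Subgroup H}
    {ρ : Subgroup.centralizer {z} →* alternatingGroup (Fin 5)} (D : Dat z Q ρ) (S : Sylow 2 G) :
    (groupFusionSystem (S : Subgroup G)).IsSimple 2 := by
  have hm : ∀ c : G, c ∈ Subgroup.centralizer {e.symm z} ↔ e c ∈ Subgroup.centralizer {z} := by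
    intro c
    rw [comm_iff, comm_iff]
    constructor
    · intro h
      have := congrArg e h
      rwa [map_mul, map_mul, e.apply_symm_apply] at this
    · intro h
      apply e.injective
      rwa [map_mul, map_mul, e.apply_symm_apply]
  let μ : Subgroup.centralizer {e.symm z} →* Subgroup.centralizer {z} :=
    { toFun := fun c => ⟨e c, (hm c).1 c.2⟩
      map_one' := Subtype.ext (map_one e)
      map_mul' := fun a b => Subtype.ext (map_mul e _ _) }
  have hQ : ∀ x : G, x ∈ Q.comap e.toMonoidHom ↔ e x ∈ Q := fun x => Iff.rfl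
  have D' : Dat (e.symm z) (Q.comap e.toMonoidHom) (ρ.comp μ) := by
    refine ⟨?_, ?_, ?_, ?_, ?_, ?_, ?_, ?_, ?_, ?_, ?_, ?_⟩
    · intro h
      apply D.ne
      have := congrArg e h
      rwa [e.apply_symm_apply, map_one] at this
    · rw [← map_mul, D.sq, map_one]
    · rw [hQ, e.apply_symm_apply]; exact D.mem
    · intro x hx
      rw [hm]; exact D.le hx
    · rw [← D.card]
      have hmap : (Q.comap e.toMonoidHom).map e.toMonoidHom = Q := Subgroup.map_comap_eq_self_of_surjective e.surjective Q
      exact Nat.card_congr ((e.subgroupMap (Q.comap e.toMonoidHom)).trans (MulEquiv.subgroupCongr hmap)).toEquiv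
    · intro x hx y hy
      rcases D.comm (e x) hx (e y) hy with h | h
      · left
        apply e.injective
        rwa [map_mul, map_mul]
      · right
        apply e.injective
        rwa [map_mul, map_mul, map_mul, e.apply_symm_apply]
    · intro x hx h
      rcases D.cen (e x) hx (fun y hy => by
        have := congrArg e (h (e.symm y) (by rw [hQ, e.apply_symm_apply]; exact hy))
        rwa [map_mul, map_mul, e.apply_symm_apply] at this) with h1 | h1
      · left
        apply e.injective
        rw [h1, map_one]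
      · right
        apply e.injective
        rw [h1, e.apply_symm_apply]
    · intro c hc h
      rw [hQ]
      apply D.ccq _ ((hm c).1 hc)
      intro q hq
      have := congrArg e (h (e.symm q) (by rw [hQ, e.apply_symm_apply]; exact hq))
      rwa [map_mul, map_mul, e.apply_symm_apply] at this
    · intro a
      obtain ⟨c, hc⟩ := D.surj a
      refine ⟨⟨e.symm c, (hm _).2 (by rw [e.apply_symm_apply]; exact c.2)⟩, ?_⟩
      rw [← hc]
      show ρ ⟨e (e.symm c), _⟩ = ρ c
      congr 1
      exact Subtype.ext (e.apply_symm_apply _)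
    · intro c
      exact D.ker (μ c)
    · obtain ⟨g, hg, hgz⟩ := D.conj
      refine ⟨e.symm g, ?_, ?_⟩
      · rw [hQ, map_mul, map_mul, map_inv, e.apply_symm_apply, e.apply_symm_apply]; exact hg
      · intro h
        apply hgz
        have := congrArg e h
        rwa [map_mul, map_mul, map_inv, e.apply_symm_apply, e.apply_symm_apply] at this
    · have h1 : (Subgroup.centralizer {e.symm z}).index = (Subgroup.centralizer {z}).index := by
        have h2 : Subgroup.centralizer {e.symm z} = (Subgroup.centralizer {z}).comap e.toMonoidHom := by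
          ext c; exact hm c
        rw [h2, Subgroup.index_comap_of_surjective _ e.surjective]
      rw [h1]; exact D.odd
  exact D'.simple S

section J2

open Cfsg.Agent.H20.J2L
open Cfsg.Agent.H20.J2P (P Rep In G gL dg cmi idp wv grp)

theorem mem_Q {x : G} : x ∈ Q0.comap G.subtype ↔ (x : P) ∈ Q0 := Iff.rfl

theorem rho_range : Cfsg.Agent.H20.J2L.ρ.range = alternatingGroup (Fin 5) := by
  apply Equiv.Perm.eq_alternatingGroup_of_index_eq_two
  have h2 := Subgroup.card_mul_index Cfsg.Agent.H20.J2L.ρ.range
  rw [card_range.1, Nat.card_perm, Nat.card_eq_fintype_card, Fintype.card_fin] at h2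
  have : Nat.factorial 5 = 60 * 2 := by decide
  rw [this] at h2
  exact Nat.eq_of_mul_eq_mul_left (by norm_num) h2

noncomputable def rho' : Subgroup.centralizer {t 0} →* alternatingGroup (Fin 5) :=
  Cfsg.Agent.H20.J2L.ρ.codRestrict (alternatingGroup (Fin 5)) (fun c => by rw [← rho_range]; exact ⟨c, rfl⟩)

instance finG : Finite G := Nat.finite_of_card_ne_zero (by rw [Cfsg.Agent.H20.J2P.card_G]; norm_num)

theorem datJ2 : Dat (t 0) (Q0.comap G.subtype) rho' := by
  refine ⟨?_, ?_, ?_, ?_, ?_, ?_, ?_, ?_, ?_, ?_, ?_, ?_⟩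
  · intro h
    exact t0_ne (congrArg Subtype.val h)
  · exact t_sq 0
  · exact t0_mem
  · intro x hx
    exact mem_CC' hx
  · rw [← card_Q0]
    refine Nat.card_congr (Equiv.ofBijective (fun c : Q0.comap G.subtype => (⟨((c : G) : P), c.2⟩ : Q0)) ⟨?_, ?_⟩)
    · intro a b h
      have h1 := congrArg Subtype.val h
      exact Subtype.ext (Subtype.ext h1)
    · rintro ⟨x, hx⟩
      exact ⟨⟨⟨x, Q0_le_G hx⟩, hx⟩, rfl⟩
  · intro x hx y hy
    rcases Q0_comm hx hy with h | h
    · left; exact Subtype.ext h
    · right; exact Subtype.ext h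
  · intro x hx h
    have h1 : ∀ y ∈ Q0, (x : P) * y = y * (x : P) := by
      intro y hy
      exact congrArg Subtype.val (h ⟨y, Q0_le_G hy⟩ hy)
    rcases Q0_cen hx h1 with h2 | h2
    · left; exact Subtype.ext h2
    · right; exact Subtype.ext h2
  · intro c hc h
    have h1 : (⟨c, hc⟩ : CC) ∈ Cfsg.Agent.H20.J2L.ρ.ker := by
      rw [MonoidHom.mem_ker]
      apply Equiv.ext
      intro a
      rw [ρ_apply]
      apply Fin.ext
      have hJ := (rpl_J a).1
      rw [mf_spec ⟨c, hc⟩ (j := rpJ a) hJ a (rpl_J a).2]
      have h2 : θ c (rpJ a) = rpJ a := by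
        apply t_inj
        rw [← θ_conj]
        have h3 := h (t (rpJ a)) (J_mem hJ (J315 hJ))
        rw [h3, mul_inv_cancel_right]
      show prn.getD (θ c (rpJ a)) 0 = _
      rw [h2]
      exact (rpl_J a).2
    rw [card_range.2] at h1
    exact h1
  · intro a
    have h1 : (a : Equiv.Perm (Fin 5)) ∈ Cfsg.Agent.H20.J2L.ρ.range := by rw [rho_range]; exact a.2
    obtain ⟨c, hc⟩ := h1
    exact ⟨c, Subtype.ext hc⟩
  · intro c
    have h1 : rho' c = 1 ↔ Cfsg.Agent.H20.J2L.ρ c = 1 := by
      constructor
      · intro h; exact congrArg Subtype.val h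
      · intro h; exact Subtype.ext h
    rw [h1, ← MonoidHom.mem_ker, card_range.2]
    exact Iff.rfl
  · obtain ⟨g, hg⟩ := transT 1
    refine ⟨g, ?_, ?_⟩
    · rw [θ_conj, hg]
      exact J_mem (j := 1) (by decide) (by norm_num)
    · rw [θ_conj, hg]
      intro h
      have := t_inj h
      exact absurd this (by decide)
  · have h1 := Subgroup.card_mul_index (Subgroup.centralizer {t 0})
    rw [Cfsg.Agent.H20.J2P.card_G, show Nat.card (Subgroup.centralizer {t 0}) = 1920 from card_CC] at h1
    have h2 : (Subgroup.centralizer {t 0}).index = 315 := Nat.eq_of_mul_eq_mul_left (by norm_num : 0 < 1920) (h1.trans (by norm_num))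
    rw [h2]; decide

theorem j2 {G : Type*} [Group G] [Finite G] (hG : Cfsg.Spor.IsoJ2 G) (S : Sylow 2 G) :
    (Cfsg.groupFusionSystem (S : Subgroup G)).IsSimple 2 := by
  obtain ⟨e⟩ := hG
  exact datJ2.transfer (e.trans eJ) S

end J2

end Cfsg.Agent.H26.FusX
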