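import Mathlib
import Cfsg.Agent.H26_FusX

set_option autoImplicit false
set_option linter.unusedVariables false
set_option linter.unusedSectionVars false

namespace Cfsg.Agent.H26.FusX

open Cfsg Cfsg.FusionSystem

theorem Dat.transferT {G H : Type*} [Group G] [Finite G] [Group H] [Finite H] (e : G ≃* H) {z : H} {Q : Subgroup H}
    {ρ : Subgroup.centralizer {z} →* alternatingGroup (Fin 5)} (D : Dat z Q ρ) (S : Sylow 2 G) :
    (groupFusionSystem (S : Subgroup G)).IsSimple 2 := by
  have hm : ∀ c : G, c ∈ Subgroup.centralizer {e.symm z} ↔ e c ∈ Subgroup.centralizer {z} := by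
    intro c
    rw [comm_iff, comm_iff]
    constructor
    · intro h
      have := congrArg e h
      rwa [map_mul, map_mul, e.apply_symm_apply] at this
    · intro h
      apply e.injective
      rwa [map_mul, map_mul, e.apply_symm_apply]
  let μ : Subgroup.centralizer {e.symm z} →* Subgroup.centralizer {z} :=
    { toFun := fun c => ⟨e c, (hm c).1 c.2⟩
      map_one' := Subtype.ext (map_one e)
      map_mul' := fun a b => Subtype.ext (map_mul e _ _) }
  have hQ : ∀ x : G, x ∈ Q.comap e.toMonoidHom ↔ e x ∈ Q := fun x => Iff.rfl
  have D' : Dat (e.symm z) (Q.comap e.toMonoidHom) (ρ.comp μ) := by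
    refine ⟨?_, ?_, ?_, ?_, ?_, ?_, ?_, ?_, ?_, ?_, ?_, ?_⟩
    · intro h
      apply D.ne
      have := congrArg e h
      rwa [e.apply_symm_apply, map_one] at this
    · rw [← map_mul, D.sq, map_one]
    · rw [hQ, e.apply_symm_apply]; exact D.mem
    · intro x hx
      rw [hm]; exact D.le hx
    · rw [← D.card]
      have hmap : (Q.comap e.toMonoidHom).map e.toMonoidHom = Q := Subgroup.map_comap_eq_self_of_surjective e.surjective Q
      exact Nat.card_congr ((e.subgroupMap (Q.comap e.toMonoidHom)).trans (MulEquiv.subgroupCongr hmap)).toEquiv
    · intro x hx y hy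
      rcases D.comm (e x) hx (e y) hy with h | h
      · left
        apply e.injective
        rwa [map_mul, map_mul]
      · right
        apply e.injective
        rwa [map_mul, map_mul, map_mul, e.apply_symm_apply]
    · intro x hx h
      rcases D.cen (e x) hx (fun y hy => by
        have := congrArg e (h (e.symm y) (by rw [hQ, e.apply_symm_apply]; exact hy))
        rwa [map_mul, map_mul, e.apply_symm_apply] at this) with h1 | h1
      · left
        apply e.injective
        rw [h1, map_one]
      · right
        apply e.injective
        rw [h1, e.apply_symm_apply]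
    · intro c hc h
      rw [hQ]
      apply D.ccq _ ((hm c).1 hc)
      intro q hq
      have := congrArg e (h (e.symm q) (by rw [hQ, e.apply_symm_apply]; exact hq))
      rwa [map_mul, map_mul, e.apply_symm_apply] at this
    · intro a
      obtain ⟨c, hc⟩ := D.surj a
      refine ⟨⟨e.symm c, (hm _).2 (by rw [e.apply_symm_apply]; exact c.2)⟩, ?_⟩
      rw [← hc]
      show ρ ⟨e (e.symm c), _⟩ = ρ c
      congr 1
      exact Subtype.ext (e.apply_symm_apply _)
    · intro c
      exact D.ker (μ c)
    · obtain ⟨g, hg, hgz⟩ := D.conj
      refine ⟨e.symm g, ?_, ?_⟩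
      · rw [hQ, map_mul, map_mul, map_inv, e.apply_symm_apply, e.apply_symm_apply]; exact hg
      · intro h
        apply hgz
        have := congrArg e h
        rwa [map_mul, map_mul, map_inv, e.apply_symm_apply, e.apply_symm_apply] at this
    · have h1 : (Subgroup.centralizer {e.symm z}).index = (Subgroup.centralizer {z}).index := by
        have h2 : Subgroup.centralizer {e.symm z} = (Subgroup.centralizer {z}).comap e.toMonoidHom := by
          ext c; exact hm c
        rw [h2, Subgroup.index_comap_of_surjective _ e.surjective]
      rw [h1]; exact D.odd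
  exact D'.simple S

end Cfsg.Agent.H26.FusX
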