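import Mathlib
import Cfsg.Agent.H26_FusX
import Cfsg.Agent.H26_FusT
import Cfsg.Agent.H20_J3E
import Cfsg.Agent.H20_J3W

set_option autoImplicit false
set_option linter.unusedVariables false
set_option linter.unusedSectionVars false

namespace Cfsg.Agent.H26.FusX

open Cfsg Cfsg.FusionSystem

/-- the centraliser of `Q` is contained in `Q` -/
theorem ccq_of {G : Type*} [Group G] {z : G} {Q : Subgroup G} {ρ : Subgroup.centralizer {z} →* alternatingGroup (Fin 5)}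
    (le : Q ≤ Subgroup.centralizer {z}) (comm : ∀ x ∈ Q, ∀ y ∈ Q, x * y = y * x ∨ x * y = z * (y * x))
    (surj : Function.Surjective ρ) (ker : ∀ c : Subgroup.centralizer {z}, ρ c = 1 ↔ (c : G) ∈ Q)
    (h : ∃ c ∈ Subgroup.centralizer {z}, ∃ x ∈ Q, c * x * c⁻¹ ≠ x ∧ c * x * c⁻¹ ≠ z * x) :
    ∀ c ∈ Subgroup.centralizer {z}, (∀ q ∈ Q, c * q = q * c) → c ∈ Q := by
  have nrm : ∀ c ∈ Subgroup.centralizer {z}, ∀ x ∈ Q, c * x * c⁻¹ ∈ Q := by
    intro c hc x hx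
    have h := ker ⟨c * x * c⁻¹, mul_mem (mul_mem hc (le hx)) (inv_mem hc)⟩
    refine h.1 ?_
    have e : (⟨c * x * c⁻¹, mul_mem (mul_mem hc (le hx)) (inv_mem hc)⟩ : Subgroup.centralizer {z}) =
        ⟨c, hc⟩ * ⟨x, le hx⟩ * ⟨c, hc⟩⁻¹ := rfl
    have h2 : ρ ⟨x, le hx⟩ = 1 := (ker ⟨x, le hx⟩).2 hx
    rw [e, map_mul, map_mul, h2, map_inv, mul_one, mul_inv_cancel]
  intro k hk hkQ
  by_contra hkn
  let K : Subgroup (Subgroup.centralizer {z}) := (Subgroup.centralizer (Q : Set G)).subgroupOf (Subgroup.centralizer {z})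
  have hmem : ∀ c : Subgroup.centralizer {z}, c ∈ K ↔ ∀ q ∈ Q, (c : G) * q = q * c := by
    intro c
    rw [Subgroup.mem_subgroupOf, Subgroup.mem_centralizer_iff]
    exact ⟨fun h q hq => (h q hq).symm, fun h q hq => (h q hq).symm⟩
  have hKn : K.Normal := by
    constructor
    intro m hm c
    rw [hmem] at hm ⊢
    intro q hq
    have h1 := nrm _ (inv_mem c.2) q hq
    rw [inv_inv] at h1
    have h2 := hm _ h1
    show (c : G) * m * (c : G)⁻¹ * q = q * ((c : G) * m * (c : G)⁻¹)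
    calc (c : G) * m * (c : G)⁻¹ * q = (c : G) * (m * ((c : G)⁻¹ * q * c)) * (c : G)⁻¹ := by group
      _ = (c : G) * ((c : G)⁻¹ * q * c * m) * (c : G)⁻¹ := by rw [h2]
      _ = _ := by group
  have hmap := hKn.map ρ surj
  haveI : IsSimpleGroup (alternatingGroup (Fin 5)) := alternatingGroup.isSimpleGroup_five
  have htop : K.map ρ = ⊤ := by
    refine hmap.eq_bot_or_eq_top.resolve_left fun h => hkn ?_
    have h1 : ρ ⟨k, hk⟩ ∈ K.map ρ := ⟨⟨k, hk⟩, (hmem _).2 hkQ, rfl⟩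
    rw [h, Subgroup.mem_bot] at h1
    exact (ker _).1 h1
  obtain ⟨c, hc, x, hx, h1, h2⟩ := h
  have h3 : ρ ⟨c, hc⟩ ∈ K.map ρ := by rw [htop]; trivial
  obtain ⟨m, hm, hmc⟩ := h3
  have h4 : ρ (m⁻¹ * ⟨c, hc⟩) = 1 := by rw [map_mul, map_inv, hmc, inv_mul_cancel]
  have h5 : (m : G)⁻¹ * c ∈ Q := (ker _).1 h4
  have hm' := (hmem m).1 hm
  obtain ⟨q, hq⟩ : ∃ q, q = (m : G)⁻¹ * c := ⟨_, rfl⟩
  rw [← hq] at h5
  have h6 : c = m * q := by rw [hq, mul_inv_cancel_left]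
  have h8 : c * x * c⁻¹ = q * x * q⁻¹ := by
    have h9 : q * x * q⁻¹ ∈ Q := mul_mem (mul_mem h5 hx) (inv_mem h5)
    calc c * x * c⁻¹ = m * (q * x * q⁻¹) * (m : G)⁻¹ := by rw [h6]; group
      _ = (q * x * q⁻¹) * m * (m : G)⁻¹ := by rw [hm' _ h9]
      _ = _ := by group
  rcases comm q h5 x hx with h9 | h9
  · apply h1
    rw [h8, h9]; group
  · apply h2
    rw [h8, h9]; group

section J3

open Cfsg.Agent.H20.J3C Cfsg.Agent.H20.J3P Cfsg.Agent.H20.J3D Cfsg.Agent.H20.J3M Cfsg.Agent.H8.CE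
open Cfsg.Agent.H20

noncomputable def rho3 : Subgroup.centralizer {z} →* alternatingGroup (Fin 5) :=
  (quotA5.some.toMonoidHom.comp (QuotientGroup.mk' QC) : Cfsg.Agent.H20.J3C.C →* alternatingGroup (Fin 5))

theorem rho3_surj : Function.Surjective rho3 := by
  intro a
  obtain ⟨x, rfl⟩ := quotA5.some.surjective a
  obtain ⟨c, rfl⟩ := QuotientGroup.mk'_surjective QC x
  exact ⟨c, rfl⟩

theorem rho3_ker (c : Subgroup.centralizer {z}) : rho3 c = 1 ↔ (c : J) ∈ Q0 := by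
  have h1 : rho3 c = quotA5.some (QuotientGroup.mk' QC c) := rfl
  rw [h1, map_eq_one_iff _ quotA5.some.injective]
  exact QuotientGroup.eq_one_iff (N := QC) c

theorem eQ1 : eQ 1 = YQ 0 := by
  show ev YQ (psQ.getD 1 []) = YQ 0
  have : psQ.getD 1 [] = [0] := by decide
  rw [this, ev_cons, ev_nil, mul_one]

theorem nrm0 : YQ 0 * YH 0 = YH 0 * eQ 28 := by
  have h0 : ((0, 0, 28) : ℕ × ℕ × ℕ) ∈ norm := by decide
  have h2 := eqb_sound (List.all_eq_true.1 c_norm _ h0)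
  rw [ev_append, ev_append, ← eQ_fl] at h2
  exact h2

theorem datJ3 [Finite J] : Dat z Q0 rho3 := by
  refine ⟨z_ne, z_sq, z_mem, ?_, card_Q0, ?_, ?_, ?_, rho3_surj, rho3_ker, ?_, ?_⟩
  · exact Q0_le
  · intro x hx y hy; exact Q0_comm hx hy
  · intro x hx h; exact Q0_cen hx h
  · refine ccq_of Q0_le (fun x hx y hy => Q0_comm hx hy) rho3_surj rho3_ker ?_
    refine ⟨(YH 0)⁻¹, inv_mem ?_, eQ 1, eQ_mem (by decide), ?_, ?_⟩
    · rw [comm_iff]; exact hz 0 (by decide)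
    · rw [eQ1, inv_inv, mul_assoc, nrm0, inv_mul_cancel_left, ← eQ1]
      intro h
      have := eQ_inj (by decide) (by decide) h
      exact absurd this (by decide)
    · rw [eQ1, inv_inv, mul_assoc, nrm0, inv_mul_cancel_left, ← eQ1, ← eQ_zi, eQ_mul zi_lt (by decide)]
      intro h
      have := eQ_inj (by decide) (mQ_lt zi_lt (by decide)) h
      revert this
      decide +kernel
  · have h1 : mQ 1 1 = 0 := by decide +kernel
    have h2 : eQ 1 * eQ 1 = 1 := by rw [eQ_mul (by decide) (by decide), h1, eQ_zero]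
    have h3 : eQ 1 ≠ 1 := by
      rw [← eQ_zero]
      intro h
      exact absurd (eQ_inj (by decide) (by decide) h) (by decide)
    have h4 : eQ 1 ≠ z := by
      rw [← eQ_zi]
      intro h
      exact absurd (eQ_inj (by decide) zi_lt h) (by decide)
    obtain ⟨c, hc⟩ := inv_conj h2 h3
    refine ⟨c⁻¹, ?_⟩
    have h5 : c⁻¹ * z * c⁻¹⁻¹ = eQ 1 := by rw [← hc]; group
    rw [h5]
    exact ⟨eQ_mem (by decide), h4⟩
  · have h1 := Subgroup.card_mul_index (Subgroup.centralizer {z})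
    rw [card_J, show Nat.card (Subgroup.centralizer {z}) = 1920 from card_C] at h1
    have h2 : (Subgroup.centralizer {z}).index = 26163 := Nat.eq_of_mul_eq_mul_left (by norm_num : 0 < 1920) (h1.trans (by norm_num))
    rw [h2]; decide

theorem j3 {G : Type*} [Group G] [Finite G] (hG : Cfsg.Spor.IsoJ3 G) (S : Sylow 2 G) :
    (Cfsg.groupFusionSystem (S : Subgroup G)).IsSimple 2 := by
  obtain ⟨F, _, _, ω, hF, hω, ⟨e⟩⟩ := hG
  haveI : Finite J := Nat.finite_of_card_ne_zero (by rw [card_J]; norm_num)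
  have e2 := Cfsg.Agent.H20.J3W.eJ (Cfsg.Agent.H20.J3W.FH_of hF hω)
  exact datJ3.transferT (e.trans e2.symm) S

end J3

end Cfsg.Agent.H26.FusX
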