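import Mathlib
import Cfsg.Agent.H14_M24Gen

set_option autoImplicit false
set_option linter.unusedVariables false
set_option linter.unusedSectionVars false

/-!
2-subgroups of `M24` given by polycyclic sequences of permutations (lists of images).
-/

namespace Cfsg.Agent.HL.Mat

open Cfsg Cfsg.Agent.H7.Golay Cfsg.Agent.H7.Oct Cfsg.Agent.H7.M24 Cfsg.Agent.H14.M24Eng Cfsg.Agent.H14.M24Gen
open scoped Pointwise

theorem eq_of_rep {g h : Equiv.Perm GolayPt} {a : List ℕ} (hg : Rep g a) (hh : Rep h a) : g = h := by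
  ext1 p
  apply ix_injective
  rw [hg.2, hh.2]

/-- product of the members of the list chosen by the binary digits of `e` -/
def word : List (List ℕ) → ℕ → List ℕ
  | [], _ => List.range 24
  | a :: as, e => bif Nat.beq (e % 2) 1 then comp a (word as (e / 2)) else word as (e / 2)

def relOK (a : List ℕ) (as : List (List ℕ)) : List (List ℕ) → List ℕ → Bool
  | [], [] => true
  | b :: bs, e :: es => (comp a b == comp (word as e) a) && relOK a as bs es
  | _, _ => false

def pcOK : List (List ℕ) → List (ℕ × List ℕ) → Bool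
  | [], _ => true
  | a :: as, e :: es => (comp a a == word as e.1) && (relOK a as as e.2 && pcOK as es)
  | _ :: _, [] => false

/-- the group generated by the permutations represented in the list -/
def gp (as : List (List ℕ)) : Subgroup (Equiv.Perm GolayPt) :=
  Subgroup.closure {g | ∃ l ∈ as, Rep g l}

theorem gp_mono {as bs : List (List ℕ)} (h : ∀ l ∈ as, l ∈ bs) : gp as ≤ gp bs :=
  Subgroup.closure_mono fun _ ⟨l, hl, hg⟩ => ⟨l, h l hl, hg⟩

theorem gp_le {as : List (List ℕ)} {K : Subgroup (Equiv.Perm GolayPt)} (h : Has K as) : gp as ≤ K := by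
  rw [gp, Subgroup.closure_le]
  rintro g ⟨l, hl, hg⟩
  obtain ⟨g', hg', hr⟩ := h l hl
  rw [eq_of_rep hg hr]; exact hg'

theorem has_gp {as : List (List ℕ)} {K : Subgroup (Equiv.Perm GolayPt)} (h : Has K as) : Has (gp as) as := by
  intro l hl
  obtain ⟨g, _, hr⟩ := h l hl
  exact ⟨g, Subgroup.subset_closure ⟨l, hl, hr⟩, hr⟩

theorem has_word {as : List (List ℕ)} {K : Subgroup (Equiv.Perm GolayPt)} (h : Has K as) (e : ℕ) :
    ∃ g ∈ K, Rep g (word as e) := by
  induction as generalizing e with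
  | nil => exact ⟨1, one_mem _, rep_one⟩
  | cons a as ih =>
    obtain ⟨g, hg, hr⟩ := ih (fun l hl => h l (List.mem_cons_of_mem _ hl)) (e / 2)
    obtain ⟨g', hg', hr'⟩ := h a List.mem_cons_self
    unfold word
    cases Nat.beq (e % 2) 1
    · exact ⟨g, hg, hr⟩
    · exact ⟨g' * g, mul_mem hg' hg, rep_mul hr' hr⟩

theorem relOK_spec {a : List ℕ} {as : List (List ℕ)} : ∀ {bs : List (List ℕ)} {es : List ℕ}, relOK a as bs es = true →
    ∀ b ∈ bs, ∃ e, comp a b = comp (word as e) a
  | [], [], _ => by simp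
  | b :: bs, e :: es, h => by
    simp only [relOK, Bool.and_eq_true, beq_iff_eq] at h
    intro b' hb'
    rcases List.mem_cons.1 hb' with rfl | hb'
    · exact ⟨e, h.1⟩
    · exact relOK_spec h.2 b' hb'
  | [], _ :: _, h => by simp [relOK] at h
  | _ :: _, [], h => by simp [relOK] at h

theorem word_cons (a : List ℕ) (as : List (List ℕ)) (e : ℕ) : word (a :: as) e =
    bif Nat.beq (e % 2) 1 then comp a (word as (e / 2)) else word as (e / 2) := rfl

theorem word_cons_zero (a : List ℕ) (as : List (List ℕ)) (e : ℕ) : word (a :: as) (2 * e) = word as e := by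
  have : 2 * e % 2 = 0 := by omega
  have h2 : 2 * e / 2 = e := by omega
  rw [word_cons, this, h2]; rfl

theorem word_cons_one (a : List ℕ) (as : List (List ℕ)) (e : ℕ) : word (a :: as) (2 * e + 1) = comp a (word as e) := by
  have : (2 * e + 1) % 2 = 1 := by omega
  have h2 : (2 * e + 1) / 2 = e := by omega
  rw [word_cons, this, h2]; rfl

/-- the group generated by an element `a` normalizing `T` with square in `T` -/
theorem closure_two {G : Type*} [Group G] (T : Subgroup G) (a : G) (h1 : ∀ t ∈ T, a * t * a⁻¹ ∈ T) (h2 : a * a ∈ T)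
    {x : G} (hx : x ∈ T ⊔ Subgroup.zpowers a) : x ∈ T ∨ a⁻¹ * x ∈ T := by
  have h3 : ∀ t ∈ T, a⁻¹ * t * a ∈ T := by
    intro t ht
    have := T.mul_mem (T.mul_mem (T.inv_mem h2) (h1 t ht)) h2
    convert this using 1
    group
  have h4 : x ∈ Subgroup.closure ((T : Set G) ∪ {a}) := by
    rwa [Subgroup.closure_union, Subgroup.closure_eq, ← Subgroup.zpowers_eq_closure]
  clear hx
  induction h4 using Subgroup.closure_induction with
  | mem y hy =>
    rcases hy with hy | hy
    · exact Or.inl hy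
    · rw [Set.mem_singleton_iff] at hy
      subst hy
      right; rw [inv_mul_cancel]; exact T.one_mem
  | one => exact Or.inl T.one_mem
  | mul y z _ _ hy hz =>
    rcases hy with hy | hy <;> rcases hz with hz | hz
    · exact Or.inl (T.mul_mem hy hz)
    · right
      have := T.mul_mem (h3 y hy) hz
      convert this using 1; group
    · right
      have := T.mul_mem hy hz
      convert this using 1; group
    · left
      -- y = a u, z = a v, y z = a u a v = (a u a⁻¹) a² v
      have := T.mul_mem (T.mul_mem (h1 _ hy) h2) hz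
      convert this using 1; group
  | inv y _ hy =>
    rcases hy with hy | hy
    · exact Or.inl (T.inv_mem hy)
    · right
      -- y = a u, a⁻¹ y⁻¹ = a⁻¹ u⁻¹ a⁻¹ = (a⁻¹ u⁻¹ a) a⁻²
      have := T.mul_mem (h3 _ (T.inv_mem hy)) (T.inv_mem h2)
      convert this using 1; group

theorem pc_spec : ∀ {as : List (List ℕ)} {es : List (ℕ × List ℕ)} {K : Subgroup (Equiv.Perm GolayPt)}, Has K as →
    pcOK as es = true → (∀ g ∈ gp as, ∃ e < 2 ^ as.length, Rep g (word as e)) ∧ IsPGroup 2 (gp as)
  | [], _, _, _, _ => by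
    have h0 : gp [] = ⊥ := by
      rw [gp, Subgroup.closure_eq_bot_iff]
      rintro g ⟨l, hl, _⟩
      simp at hl
    constructor
    · intro g hg
      rw [h0, Subgroup.mem_bot] at hg
      subst hg
      exact ⟨0, by norm_num, rep_one⟩
    · rw [h0]; exact IsPGroup.of_bot
  | a :: as, [], _, _, h => by simp [pcOK] at h
  | a :: as, e :: es, K, hK, h => by
    simp only [pcOK, Bool.and_eq_true, beq_iff_eq] at h
    obtain ⟨h1, h2, h3⟩ := h
    have hK' : Has K as := fun l hl => hK l (List.mem_cons_of_mem _ hl)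
    obtain ⟨i1, i2⟩ := pc_spec hK' h3
    obtain ⟨x, hx, rx⟩ := hK a List.mem_cons_self
    have hT := has_gp hK'
    have hsq : x * x ∈ gp as := by
      obtain ⟨g, hg, hr⟩ := has_word hT e.1
      have : x * x = g := eq_of_rep (a := word as e.1) (by rw [← h1]; exact rep_mul rx rx) hr
      rw [this]; exact hg
    have hnorm : ∀ t ∈ gp as, x * t * x⁻¹ ∈ gp as := by
      intro t ht
      have : gp as ≤ (gp as).comap (MulAut.conj x).toMonoidHom := by
        rw [gp, Subgroup.closure_le]
        rintro g ⟨l, hl, hg⟩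
        obtain ⟨e', he'⟩ := relOK_spec h2 l hl
        obtain ⟨g', hg', hr'⟩ := has_word hT e'
        show x * g * x⁻¹ ∈ gp as
        have h5 : x * g = g' * x := eq_of_rep (a := comp a l) (rep_mul rx hg) (by rw [he']; exact rep_mul hr' rx)
        rw [h5, mul_inv_cancel_right]; exact hg'
      exact this ht
    have hle : gp (a :: as) ≤ gp as ⊔ Subgroup.zpowers x := by
      rw [gp, Subgroup.closure_le]
      rintro g ⟨l, hl, hg⟩
      rcases List.mem_cons.1 hl with rfl | hl
      · rw [eq_of_rep hg rx]; exact Subgroup.mem_sup_right (Subgroup.mem_zpowers x)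
      · exact Subgroup.mem_sup_left (Subgroup.subset_closure ⟨l, hl, hg⟩)
    have hdich : ∀ g ∈ gp (a :: as), g ∈ gp as ∨ x⁻¹ * g ∈ gp as := fun g hg =>
      closure_two (gp as) x hnorm hsq (hle hg)
    constructor
    · intro g hg
      rcases hdich g hg with h5 | h5
      · obtain ⟨e', he', hr⟩ := i1 g h5
        refine ⟨2 * e', by rw [List.length_cons, pow_succ]; omega, ?_⟩
        rw [word_cons_zero]; exact hr
      · obtain ⟨e', he', hr⟩ := i1 _ h5
        refine ⟨2 * e' + 1, by rw [List.length_cons, pow_succ]; omega, ?_⟩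
        rw [word_cons_one]
        have := rep_mul rx hr
        rwa [mul_inv_cancel_left] at this
    · rintro ⟨g, hg⟩
      have h6 : g * g ∈ gp as := by
        rcases hdich g hg with h5 | h5
        · exact mul_mem h5 h5
        · have := mul_mem (mul_mem (hnorm _ h5) hsq) h5
          convert this using 1; group
      obtain ⟨k, hk⟩ := i2 ⟨_, h6⟩
      refine ⟨k + 1, Subtype.ext ?_⟩
      have := congrArg Subtype.val hk
      simp only [Subgroup.coe_pow, Subgroup.coe_one] at this ⊢
      rw [pow_succ', pow_mul, pow_two]; exact this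

theorem card_gp_le {as : List (List ℕ)} {es : List (ℕ × List ℕ)} {K : Subgroup (Equiv.Perm GolayPt)} (hK : Has K as)
    (h : pcOK as es = true) : Nat.card (gp as) ≤ 2 ^ as.length := by
  have h1 := (pc_spec hK h).1
  choose f hf1 hf2 using h1
  have : Function.Injective (fun g : gp as => (⟨f g g.2, hf1 g g.2⟩ : Fin (2 ^ as.length))) := by
    intro g g' hgg
    have h3 := congrArg Fin.val hgg
    simp only at h3
    apply Subtype.ext
    exact eq_of_rep (hf2 g g.2) (by rw [h3]; exact hf2 g' g'.2)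
  simpa using Nat.card_le_card_of_injective _ this

/-! ### the centre -/

/-- image of a point under `word as e` -/
def wAt : List (List ℕ) → ℕ → ℕ → ℕ
  | [], _, x => x
  | a :: as, e, x => bif Nat.beq (e % 2) 1 then a.getD (wAt as (e / 2) x) 0 else wAt as (e / 2) x

def pts : List ℕ := [0, 1, 2, 3, 4, 5, 6, 7, 8, 9, 10, 11, 12, 13, 14, 15, 16, 17, 18, 19, 20, 21, 22, 23]

theorem wAt_spec {as : List (List ℕ)} {K : Subgroup (Equiv.Perm GolayPt)} (hK : Has K as) (e : ℕ) {x : ℕ} (hx : x < 24) :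
    wAt as e x = (word as e).getD x 0 := by
  induction as generalizing e with
  | nil => simp [wAt, word, List.getD, hx]
  | cons a as ih =>
    have hK' : Has K as := fun l hl => hK l (List.mem_cons_of_mem _ hl)
    have i1 := ih hK' (e / 2)
    obtain ⟨g, _, hr⟩ := has_word hK' (e / 2)
    unfold wAt word
    cases Nat.beq (e % 2) 1
    · exact i1
    · simp only [cond_true]
      rw [i1]
      have hl : x < (word as (e / 2)).length := by rw [hr.1]; exact hx
      simp [comp, List.getD, hl]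

/-- every element of the group commuting with all the generators is `1` or `z` -/
def cenOK (as : List (List ℕ)) (z : List ℕ) (n : ℕ) : Bool :=
  (List.range n).all fun e =>
    (as.any fun b => pts.any fun x => !(Nat.beq (wAt as e (b.getD x 0)) (b.getD (wAt as e x) 0))) ||
      (word as e == List.range 24 || word as e == z)

theorem cen_spec {as : List (List ℕ)} {es : List (ℕ × List ℕ)} {K : Subgroup (Equiv.Perm GolayPt)} (hK : Has K as)
    (h : pcOK as es = true) {z : Equiv.Perm GolayPt} {lz : List ℕ} (hz : Rep z lz) (hc : cenOK as lz (2 ^ as.length) = true)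
    {c : Equiv.Perm GolayPt} (hcg : c ∈ gp as) (hcc : ∀ s ∈ gp as, c * s = s * c) : c = 1 ∨ c = z := by
  obtain ⟨e, he, hr⟩ := (pc_spec hK h).1 c hcg
  have h1 := List.all_eq_true.1 hc e (List.mem_range.2 he)
  rw [Bool.or_eq_true] at h1
  rcases h1 with h1 | h1
  · exfalso
    rw [List.any_eq_true] at h1
    obtain ⟨b, hb, h2⟩ := h1
    rw [List.any_eq_true] at h2
    obtain ⟨x, hx, h3⟩ := h2
    have hx24 : x < 24 := by
      revert hx; unfold pts; simp; omega
    obtain ⟨g, hg, hrg⟩ := has_gp hK b hb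
    have hcomm := hcc g hg
    have h4 := congrArg (fun w : Equiv.Perm GolayPt => ix (w (pt x))) hcomm
    simp only [Equiv.Perm.mul_apply] at h4
    rw [hr.2, hrg.2, hrg.2, hr.2, ix_pt x hx24] at h4
    have hb24 : b.getD x 0 < 24 := rep_getD_lt hrg hx24
    rw [← wAt_spec hK e hb24, ← wAt_spec hK e hx24] at h4
    rw [h4, Nat.beq_refl] at h3
    simp at h3
  · rw [Bool.or_eq_true] at h1
    rcases h1 with h1 | h1
    · left
      rw [beq_iff_eq] at h1
      exact eq_of_rep hr (by rw [h1]; exact rep_one)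
    · right
      rw [beq_iff_eq] at h1
      exact eq_of_rep hr (by rw [h1]; exact hz)

/-! ### orbits -/

/-- a list of orbits, covering all points -/
def partOK (as : List (List ℕ)) (part : List (ℕ × List ℕ)) : Bool :=
  (part.all fun P => Nat.blt P.1 24 && (reach as P.1 P.2 && ((P.1 :: P.2).all fun x => as.all fun g =>
    (P.1 :: P.2).contains (g.getD x 0)))) &&
  pts.all fun x => part.any fun P => (P.1 :: P.2).contains x

theorem mem_pts {x : ℕ} (hx : x < 24) : x ∈ pts := by
  unfold pts; simp; omega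

theorem orbit_spec {as : List (List ℕ)} {K : Subgroup (Equiv.Perm GolayPt)} (hK : Has K as)
    {part : List (ℕ × List ℕ)} (h : partOK as part = true) {P : ℕ × List ℕ} (hP : P ∈ part) {x : ℕ} (hx : x ∈ P.1 :: P.2) :
    MulAction.orbit (gp as) (pt x) = pt '' ((P.1 :: P.2).toFinset : Set ℕ) ∧
      (MulAction.orbit (gp as) (pt x)).ncard = P.2.length + 1 := by
  rw [partOK, Bool.and_eq_true] at h
  have h1 := List.all_eq_true.1 h.1 P hP
  simp only [Bool.and_eq_true] at h1
  obtain ⟨hb, hre, hst⟩ := h1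
  obtain ⟨n1, n2, n3⟩ := reach_nodup hre
  have hb' := blt_lt hb
  have hlt : ∀ y ∈ P.1 :: P.2, y < 24 := by
    intro y hy
    rcases List.mem_cons.1 hy with rfl | hy
    · exact hb'
    · exact n3 y hy
  have hex := reach_exists (has_gp hK) hre
  have hex' : ∀ y ∈ P.1 :: P.2, ∃ g ∈ gp as, g (pt y) = pt P.1 := by
    intro y hy
    rcases List.mem_cons.1 hy with rfl | hy
    · exact ⟨1, one_mem _, rfl⟩
    · exact hex y hy
  have hstab : ∀ g ∈ gp as, ∀ y ∈ P.1 :: P.2, ix (g (pt y)) ∈ P.1 :: P.2 := by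
    intro g hg
    induction hg using Subgroup.closure_induction with
    | mem g hg =>
      obtain ⟨l, hl, hr⟩ := hg
      intro y hy
      have h2 := List.all_eq_true.1 (List.all_eq_true.1 hst y hy) l hl
      rw [hr.2, ix_pt y (hlt y hy)]
      exact List.contains_iff_mem.1 h2
    | one => intro y hy; rw [Equiv.Perm.one_apply, ix_pt y (hlt y hy)]; exact hy
    | mul g g' _ _ h1 h2 =>
      intro y hy
      rw [Equiv.Perm.mul_apply]
      have := h1 _ (h2 y hy)
      rwa [pt_ix] at this
    | inv g _ h1 =>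
      intro y hy
      -- finite set argument
      have hinj : Set.InjOn (fun y => ix (g (pt y))) ((P.1 :: P.2).toFinset : Set ℕ) := by
        intro y hy z hz hyz
        have h3 := g.injective (ix_injective hyz)
        exact (pt_inj (hlt y (by simpa using hy)) (hlt z (by simpa using hz))).1 h3
      have hmaps : Set.MapsTo (fun y => ix (g (pt y))) ((P.1 :: P.2).toFinset : Set ℕ) ((P.1 :: P.2).toFinset : Set ℕ) := by
        intro y hy
        have := h1 y (by simpa using hy)
        simpa using this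
      have hsurj := Finset.surjOn_of_injOn_of_card_le (fun y => ix (g (pt y))) hmaps hinj le_rfl
      obtain ⟨w, hw, hw'⟩ := hsurj (show y ∈ ((P.1 :: P.2).toFinset : Set ℕ) by simpa using hy)
      have h4 : g (pt w) = pt y := by
        simp only at hw'
        rw [← hw', pt_ix]
      have h5 : g⁻¹ (pt y) = pt w := by rw [← h4]; simp
      rw [h5, ix_pt w (hlt w (by simpa using hw))]
      simpa using hw
  have heq : MulAction.orbit (gp as) (pt x) = pt '' ((P.1 :: P.2).toFinset : Set ℕ) := by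
    ext y
    constructor
    · rintro ⟨⟨g, hg⟩, rfl⟩
      refine ⟨ix (g (pt x)), ?_, pt_ix _⟩
      have := hstab g hg x hx
      simpa using this
    · rintro ⟨m, hm, rfl⟩
      obtain ⟨g, hg, hgm⟩ := hex' m (by simpa using hm)
      obtain ⟨g', hg', hgx⟩ := hex' x hx
      refine ⟨⟨g⁻¹ * g', mul_mem (inv_mem hg) hg'⟩, ?_⟩
      show (g⁻¹ * g') (pt x) = pt m
      rw [Equiv.Perm.mul_apply, hgx, ← hgm]; simp
  refine ⟨heq, ?_⟩
  rw [heq, Set.InjOn.ncard_image, Set.ncard_coe_finset, List.toFinset_card_of_nodup (List.nodup_cons.2 ⟨n2, n1⟩)]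
  · rfl
  · intro a ha c hc hac
    exact (pt_inj (hlt a (by simpa using ha)) (hlt c (by simpa using hc))).1 hac

/-! ### fixed points of normalizers -/

/-- `S` normal in `N`, `N` fixes the points of `F` -/
structure St (N S : Subgroup (Equiv.Perm GolayPt)) (F : List ℕ) : Prop where
  le : S ≤ N
  nrm : ∀ n ∈ N, ∀ s ∈ S, n * s * n⁻¹ ∈ S
  pgr : IsPGroup 2 S
  fix : ∀ n ∈ N, ∀ x ∈ F, n (pt x) = pt x

theorem smul_orbit {N S : Subgroup (Equiv.Perm GolayPt)} (hn : ∀ n ∈ N, ∀ s ∈ S, n * s * n⁻¹ ∈ S) {n : Equiv.Perm GolayPt}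
    (hnN : n ∈ N) (p : GolayPt) : MulAction.orbit S (n p) = n '' MulAction.orbit S p := by
  ext y
  constructor
  · rintro ⟨⟨s, hs⟩, rfl⟩
    refine ⟨(n⁻¹ * s * n) p, ⟨⟨n⁻¹ * s * n, ?_⟩, rfl⟩, ?_⟩
    · have := hn n⁻¹ (inv_mem hnN) s hs
      rwa [inv_inv] at this
    · show n ((n⁻¹ * s * n) p) = s (n p)
      simp [Equiv.Perm.mul_apply]
  · rintro ⟨_, ⟨⟨s, hs⟩, rfl⟩, rfl⟩
    refine ⟨⟨n * s * n⁻¹, hn n hnN s hs⟩, ?_⟩
    show (n * s * n⁻¹) (n p) = n (s p)
    simp [Equiv.Perm.mul_apply]

theorem isPGroup_of_orbit {N : Subgroup (Equiv.Perm GolayPt)} (p : GolayPt) {k : ℕ}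
    (h1 : (MulAction.orbit N p).ncard = 2 ^ k)
    (h2 : IsPGroup 2 ↥(N ⊓ MulAction.stabilizer (Equiv.Perm GolayPt) p)) : IsPGroup 2 N := by
  have : Fact (Nat.Prime 2) := ⟨Nat.prime_two⟩
  obtain ⟨m, hm⟩ := h2.exists_card_eq
  apply IsPGroup.of_card (n := k + m)
  rw [card_eq_orbit_mul N p, h1, hm, pow_add]

theorem stage {N S : Subgroup (Equiv.Perm GolayPt)} {F : List ℕ} (h : St N S F) {p : ℕ} (hp : p < 24) (hpF : p ∉ F)
    (hF : ∀ x ∈ F, x < 24) {m : ℕ} (hm : (MulAction.orbit S (pt p)).ncard = m) (C : Finset ℕ)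
    (hC : ∀ x < 24, (MulAction.orbit S (pt x)).ncard = m → x ∈ F ∨ x ∈ C) (hC2 : C.card ≤ 2 * m)
    (h2 : IsPGroup 2 (fixK N [p])) : IsPGroup 2 N := by
  have : Fact (Nat.Prime 2) := ⟨Nat.prime_two⟩
  have hpow : ∃ k, m = 2 ^ k := by
    obtain ⟨n, hn⟩ := h.pgr.exists_card_eq
    have h3 := card_eq_orbit_mul S (pt p)
    rw [hm, hn] at h3
    obtain ⟨k, _, hk⟩ := (Nat.dvd_prime_pow Nat.prime_two).1 (Dvd.intro _ h3.symm)
    exact ⟨k, hk⟩
  obtain ⟨k, hk⟩ := hpow
  have hcard : ∀ n ∈ N, (MulAction.orbit S (n (pt p))).ncard = m := by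
    intro n hn
    rw [smul_orbit h.nrm hn, Set.ncard_image_of_injective _ n.injective, hm]
  have hsub : MulAction.orbit N (pt p) ⊆ pt '' (C : Set ℕ) := by
    rintro _ ⟨⟨n, hn⟩, rfl⟩
    show n (pt p) ∈ _
    rcases hC (ix (n (pt p))) (ix_lt _) (by rw [pt_ix]; exact hcard n hn) with h3 | h3
    · exfalso
      have h4 := h.fix n⁻¹ (inv_mem hn) _ h3
      rw [pt_ix] at h4
      have h5 : pt p = n (pt p) := by simpa using h4
      rw [← h5, ix_pt p hp] at h3
      exact hpF h3
    · exact ⟨_, h3, pt_ix _⟩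
  have hle : (MulAction.orbit N (pt p)).ncard ≤ 2 * m := by
    refine (Set.ncard_le_ncard hsub (Set.toFinite _)).trans (le_trans ?_ hC2)
    exact (Set.ncard_image_le (Set.toFinite _)).trans (by rw [Set.ncard_coe_finset])
  have hSN : ∀ x ∈ MulAction.orbit N (pt p), MulAction.orbit S x ⊆ MulAction.orbit N (pt p) ∧
      (MulAction.orbit S x).ncard = m := by
    rintro _ ⟨⟨n, hn⟩, rfl⟩
    refine ⟨?_, hcard n hn⟩
    rintro _ ⟨⟨s, hs⟩, rfl⟩
    exact ⟨⟨s * n, mul_mem (h.le hs) hn⟩, rfl⟩
  have hfin : (MulAction.orbit N (pt p)).Finite := Set.toFinite _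
  have hcase : (MulAction.orbit N (pt p)).ncard = m ∨ (MulAction.orbit N (pt p)).ncard = 2 * m := by
    have h0 := hSN (pt p) (MulAction.mem_orbit_self _)
    by_cases hex : ∃ x ∈ MulAction.orbit N (pt p), x ∉ MulAction.orbit S (pt p)
    · obtain ⟨x, hx, hx'⟩ := hex
      right
      have h1 := hSN x hx
      have hdisj : Disjoint (MulAction.orbit S (pt p)) (MulAction.orbit S x) := by
        rw [Set.disjoint_left]
        intro y hy hy'
        apply hx'
        rw [← MulAction.orbit_eq_iff] at hy hy' ⊢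
        rw [← hy', hy]
      have h3 : (MulAction.orbit S (pt p) ∪ MulAction.orbit S x).ncard = 2 * m := by
        rw [Set.ncard_union_eq hdisj (Set.toFinite _) (Set.toFinite _), hm, h1.2]; ring
      exact le_antisymm hle (h3 ▸ Set.ncard_le_ncard (Set.union_subset h0.1 h1.1) hfin)
    · push Not at hex
      left
      exact (le_antisymm (Set.ncard_le_ncard hex (Set.toFinite _)) (Set.ncard_le_ncard h0.1 hfin)).trans hm
  have h2' : IsPGroup 2 ↥(N ⊓ MulAction.stabilizer (Equiv.Perm GolayPt) (pt p)) := by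
    have := fixK_cons N [] p hp
    rw [Cfsg.Agent.H14.M24Gen.fixK_nil] at this
    rw [this]; exact h2
  rcases hcase with h3 | h3
  · exact isPGroup_of_orbit (pt p) (k := k) (by rw [h3, hk]) h2'
  · exact isPGroup_of_orbit (pt p) (k := k + 1) (by rw [h3, hk, pow_succ]; ring) h2'

theorem St.fixK {N S : Subgroup (Equiv.Perm GolayPt)} {F : List ℕ} (h : St N S F) {p : ℕ} (hp : p < 24) :
    St (fixK N [p]) (fixK S [p]) (p :: F) where
  le := fun g hg => by rw [mem_fixK] at hg ⊢; exact ⟨h.le hg.1, hg.2⟩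
  nrm := by
    intro n hn s hs
    rw [mem_fixK] at hn hs ⊢
    refine ⟨h.nrm n hn.1 s hs.1, fun q hq => ?_⟩
    have h1 := hn.2 q hq
    have h2 := hs.2 q hq
    have h3 : n⁻¹ q = q := by rw [Equiv.Perm.inv_eq_iff_eq]; exact h1.symm
    rw [Equiv.Perm.mul_apply, Equiv.Perm.mul_apply, h3, h2, h1]
  pgr := h.pgr.to_le (fun g hg => (mem_fixK.1 hg).1)
  fix := by
    intro n hn x hx
    rw [mem_fixK] at hn
    rcases List.mem_cons.1 hx with rfl | hx
    · exact hn.2 _ (by rw [ix_pt x hp]; simp)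
    · exact h.fix n hn.1 x hx

/-- after fixing a point in an orbit of length 2 the other point is fixed, too -/
theorem St.twin {N S : Subgroup (Equiv.Perm GolayPt)} {F : List ℕ} (h : St N S F) {p q : ℕ} (hp : p < 24) (hq : q < 24)
    (hpq : p ≠ q) (ho : MulAction.orbit S (pt p) = pt '' ({p, q} : Set ℕ)) :
    ∀ n ∈ Cfsg.Agent.H7.M24.fixK N [p], ∀ x ∈ q :: p :: F, n (pt x) = pt x := by
  intro n hn x hx
  have hn' := hn
  rw [mem_fixK] at hn
  have hnp : n (pt p) = pt p := hn.2 _ (by rw [ix_pt p hp]; simp)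
  rcases List.mem_cons.1 hx with rfl | hx
  · have h1 := smul_orbit h.nrm hn.1 (pt p)
    rw [hnp, ho] at h1
    have h2 : n (pt x) ∈ pt '' ({p, x} : Set ℕ) := by
      rw [h1]; exact ⟨pt x, ⟨x, by simp, rfl⟩, rfl⟩
    obtain ⟨y, hy, hy'⟩ := h2
    rcases hy with rfl | hy
    · exfalso
      apply hpq
      have := n.injective (hnp.trans hy')
      exact (pt_inj hp hq).1 this
    · rw [Set.mem_singleton_iff] at hy
      rw [← hy', hy]
  · rcases List.mem_cons.1 hx with rfl | hx
    · exact hnp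
    · exact h.fix n hn.1 x hx

end Cfsg.Agent.HL.Mat
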