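import Mathlib
import Cfsg.Agent.HL_Mat1
import Cfsg.Agent.HL_FusCrit
import Cfsg.Agent.H1_Nilp

set_option autoImplicit false
set_option linter.unusedVariables false
set_option linter.unusedSectionVars false

/-!
Simplicity of the 2-fusion systems of the Mathieu groups: the abstract criterion in terms of lists.
-/

namespace Cfsg.Agent.HL.Mat

open Cfsg Cfsg.Agent.H7.Golay Cfsg.Agent.H7.Oct Cfsg.Agent.H7.M24 Cfsg.Agent.H14.M24Eng Cfsg.Agent.H14.M24Gen
open scoped Pointwise

/-- steps of a derivation: `(i, j, [], r, _)`: `r` is the product of the known elements `i` and `j`;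
`(i, _, h, r, e)`: `r` is the conjugate of the known element `i` by `h`, and is `word as e` -/
def stepsOK (P : List ℕ → Bool) (as : List (List ℕ)) : List (List ℕ) → List (ℕ × ℕ × List ℕ × List ℕ × ℕ) → Bool
  | Kn, [] => as.all fun a => Kn.contains a
  | Kn, (i, j, h, r, e) :: ss =>
    (match h with
      | [] => comp (Kn.getD i (List.range 24)) (Kn.getD j (List.range 24)) == r
      | _ :: _ => P h && (comp h (Kn.getD i (List.range 24)) == comp r h && word as e == r)) &&
    stepsOK P as (r :: Kn) ss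

theorem steps_spec {P : List ℕ → Bool} {as : List (List ℕ)} {M T K : Subgroup (Equiv.Perm GolayPt)} (hK : Has K as)
    (hP : ∀ l, P l = true → ∃ g ∈ M, Rep g l)
    (hT : ∀ t ∈ T, ∀ h ∈ M, h * t * h⁻¹ ∈ gp as → h * t * h⁻¹ ∈ T) :
    ∀ {ss : List (ℕ × ℕ × List ℕ × List ℕ × ℕ)} {Kn : List (List ℕ)}, Has T Kn → stepsOK P as Kn ss = true → gp as ≤ T
  | [], Kn, h1, h2 => by
    apply gp_le
    intro a ha
    have := List.all_eq_true.1 h2 a ha
    exact h1 a (List.contains_iff_mem.1 this)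
  | (i, j, [], r, e) :: ss, Kn, h1, h2 => by
    simp only [stepsOK, Bool.and_eq_true, beq_iff_eq] at h2
    apply steps_spec hK hP hT (Kn := r :: Kn) (ss := ss) _ h2.2
    intro l hl
    rcases List.mem_cons.1 hl with rfl | hl
    · obtain ⟨g, hg, hr⟩ := has_getD h1 i
      obtain ⟨g', hg', hr'⟩ := has_getD h1 j
      exact ⟨g * g', mul_mem hg hg', by rw [← h2.1]; exact rep_mul hr hr'⟩
    · exact h1 l hl
  | (i, j, x :: h, r, e) :: ss, Kn, h1, h2 => by
    simp only [stepsOK, Bool.and_eq_true, beq_iff_eq] at h2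
    apply steps_spec hK hP hT (Kn := r :: Kn) (ss := ss) _ h2.2
    intro l hl
    rcases List.mem_cons.1 hl with rfl | hl
    · obtain ⟨g, hg, hr⟩ := has_getD h1 i
      obtain ⟨c, hc, hrc⟩ := hP _ h2.1.1
      obtain ⟨w, hw, hrw⟩ := has_word (has_gp hK) e
      rw [h2.1.2.2] at hrw
      have h3 : c * g = w * c := eq_of_rep (rep_mul hrc hr) (by rw [h2.1.2.1]; exact rep_mul hrw hrc)
      have h4 : c * g * c⁻¹ = w := by rw [h3, mul_inv_cancel_right]
      refine ⟨w, ?_, hrw⟩
      rw [← h4]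
      exact hT g hg c hc (by rw [h4]; exact hw)
    · exact h1 l hl

theorem mat_simple {M : Subgroup (Equiv.Perm GolayPt)} {as : List (List ℕ)} {es : List (ℕ × List ℕ)} {lz : List ℕ}
    (hM : Has M as) (hpc : pcOK as es = true) (hne : as ≠ []) {m : ℕ} (hm : Odd m) (hcM : Nat.card M = 2 ^ as.length * m)
    (hcard : Nat.card (gp as) = 2 ^ as.length) (hz : lz ∈ as) (hcen : cenOK as lz (2 ^ as.length) = true)
    {P : List ℕ → Bool} (hP : ∀ l, P l = true → ∃ g ∈ M, Rep g l)
    {ss : List (ℕ × ℕ × List ℕ × List ℕ × ℕ)} (hss : stepsOK P as [lz] ss = true)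
    (hN : ∀ N : Subgroup (Equiv.Perm GolayPt), N ≤ M → St N (gp as) [] → IsPGroup 2 N) (S : Sylow 2 M) :
    (groupFusionSystem (S : Subgroup M)).IsSimple 2 := by
  have hfact : Fact (Nat.Prime 2) := ⟨Nat.prime_two⟩
  obtain ⟨hw, hpg⟩ := pc_spec hM hpc
  have hle : gp as ≤ M := gp_le hM
  have hpg' : IsPGroup 2 ((gp as).subgroupOf M) := by
    have e := Subgroup.subgroupOfEquivOfLe hle
    exact hpg.of_equiv e.symm
  have hcS : Nat.card ((gp as).subgroupOf M) = 2 ^ as.length := by
    rw [Nat.card_congr (Subgroup.subgroupOfEquivOfLe hle).toEquiv, hcard]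
  have hidx : ¬ 2 ∣ ((gp as).subgroupOf M).index := by
    have h1 := ((gp as).subgroupOf M).card_mul_index
    rw [hcS, hcM] at h1
    have h2 : ((gp as).subgroupOf M).index = m := Nat.eq_of_mul_eq_mul_left (by positivity) h1
    rw [h2]
    intro h3
    exact (Nat.not_even_iff_odd.2 hm) (even_iff_two_dvd.2 h3)
  let S0 : Sylow 2 M := hpg'.toSylow hidx
  have hS0 : (S0 : Subgroup M) = (gp as).subgroupOf M := rfl
  refine Cfsg.Agent.HL.FusCrit.simple_conj S0 S ?_
  apply Cfsg.Agent.HL.FusCrit.simple_of_norm S0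
  · intro h
    have h1 : Nat.card (S0 : Subgroup M) = 1 := by rw [h]; simp
    rw [hS0, hcS] at h1
    have h2 : as.length ≠ 0 := by
      intro h3; exact hne (List.length_eq_zero_iff.1 h3)
    have : 2 ^ 1 ≤ 2 ^ as.length := Nat.pow_le_pow_right (by norm_num) (by omega)
    omega
  · intro T hTS hT
    by_cases hT1 : T = ⊥
    · exact Or.inl hT1
    right
    -- T meets the centre of S0
    have hTfin : Finite T := inferInstance
    have hTn : ∀ s ∈ (S0 : Subgroup M), ∀ t ∈ T, s * t * s⁻¹ ∈ T := fun s hs t ht =>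
      hT t ht s (mul_mem (mul_mem hs (hTS ht)) (inv_mem hs))
    obtain ⟨c, hcT, hc1, hcc⟩ : ∃ c ∈ T, c ≠ 1 ∧ ∀ s ∈ (S0 : Subgroup M), c * s = s * c := by
      -- the conjugation action of S0 on T
      let T' : Subgroup (S0 : Subgroup M) := T.subgroupOf (S0 : Subgroup M)
      have hT'n : T'.Normal := by
        constructor
        intro t ht s
        exact hTn s s.2 t ht
      have hT'ne : T' ≠ ⊥ := by
        intro h
        apply hT1
        rw [eq_bot_iff]
        intro t ht
        have : (⟨t, hTS ht⟩ : (S0 : Subgroup M)) ∈ T' := ht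
        rw [h, Subgroup.mem_bot] at this
        rw [Subgroup.mem_bot]
        exact congrArg Subtype.val this
      have hp2 : IsPGroup 2 (S0 : Subgroup M) := S0.isPGroup'
      have : Group.IsNilpotent (S0 : Subgroup M) := hp2.isNilpotent
      have hnt := Cfsg.Agent.H1.Nilp.normal_inf_center_ne_bot T' hT'ne
      obtain ⟨⟨c, hc⟩, hc1⟩ := Subgroup.ne_bot_iff_exists_ne_one.1 hnt
      refine ⟨c, hc.1, fun h => hc1 (Subtype.ext (Subtype.ext h)), fun s hs => ?_⟩
      have := Subgroup.mem_center_iff.1 hc.2 ⟨s, hs⟩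
      exact (congrArg Subtype.val this).symm
    have hz' : ∃ g ∈ M, Rep g lz := hM lz hz
    obtain ⟨z, hzM, hrz⟩ := hz'
    have hcz : (c : Equiv.Perm GolayPt) = z := by
      have h1 : (c : Equiv.Perm GolayPt) ∈ gp as := hTS hcT
      have h2 : ∀ s ∈ gp as, (c : Equiv.Perm GolayPt) * s = s * c := by
        intro s hs
        have := hcc ⟨s, hle hs⟩ (show (⟨s, hle hs⟩ : M) ∈ (gp as).subgroupOf M from hs)
        exact congrArg Subtype.val this
      rcases cen_spec hM hpc hrz hcen h1 h2 with h3 | h3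
      · exact absurd (Subtype.ext h3) hc1
      · exact h3
    have hst := steps_spec (T := T.map M.subtype) hM hP (by
      rintro _ ⟨t, ht, rfl⟩ h hh hmem
      have h1 : (⟨h, hh⟩ : M) * t * (⟨h, hh⟩ : M)⁻¹ ∈ (S0 : Subgroup M) := hmem
      exact ⟨_, hT t ht ⟨h, hh⟩ h1, rfl⟩) (Kn := [lz]) (ss := ss) (by
        intro l hl
        rw [List.mem_singleton] at hl
        subst hl
        exact ⟨z, ⟨c, hcT, hcz⟩, hrz⟩) hss
    apply le_antisymm hTS
    intro s hs
    obtain ⟨t, ht, hts⟩ := hst (show (s : Equiv.Perm GolayPt) ∈ gp as from hs)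
    have : t = s := Subtype.ext hts
    rw [← this]; exact ht
  · intro g hg hgo s hs
    have hN2 := hN ((Subgroup.normalizer ((S0 : Subgroup M) : Set M)).map M.subtype) (by
      rintro _ ⟨x, -, rfl⟩; exact x.2) ⟨?_, ?_, hpg, fun _ _ x hx => by simp at hx⟩
    · obtain ⟨k, hk⟩ := hN2 ⟨(g : Equiv.Perm GolayPt), ⟨g, hg, rfl⟩⟩
      have hk' : g ^ 2 ^ k = 1 := by
        have := congrArg Subtype.val hk
        exact Subtype.ext this
      have h1 : orderOf g ∣ 2 ^ k := orderOf_dvd_of_pow_eq_one hk'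
      have h2 : orderOf g = 1 := Nat.Coprime.eq_one_of_dvd (hgo.pow_right k) h1
      rw [orderOf_eq_one_iff] at h2
      rw [h2, one_mul, mul_one]
    · intro x hx
      exact ⟨⟨x, hle hx⟩, Subgroup.le_normalizer (show (⟨x, hle hx⟩ : M) ∈ (gp as).subgroupOf M from hx), rfl⟩
    · rintro _ ⟨n, hn, rfl⟩ x hx
      have := (Subgroup.mem_normalizer_iff.1 hn ⟨x, hle hx⟩).1 (show (⟨x, hle hx⟩ : M) ∈ (gp as).subgroupOf M from hx)
      exact this

end Cfsg.Agent.HL.Mat
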