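import Mathlib
import Cfsg.Agent.HL_Mat2
import Cfsg.Agent.H7_M24d

set_option autoImplicit false
set_option linter.unusedVariables false
set_option linter.unusedSectionVars false

/-!
Simplicity of the 2-fusion systems of the Mathieu groups.
-/

namespace Cfsg.Agent.HL.Mat

open Cfsg Cfsg.Agent.H7.Golay Cfsg.Agent.H7.Oct Cfsg.Agent.H7.M24 Cfsg.Agent.H14.M24Eng Cfsg.Agent.H14.M24Gen
open scoped Pointwise

/-! ### checks -/

def plen : List (ℕ × List ℕ) → ℕ → ℕ
  | [], _ => 0
  | P :: rest, x => bif (P.1 :: P.2).contains x then P.2.length + 1 else plen rest x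

theorem plen_mem {part : List (ℕ × List ℕ)} {x : ℕ} (h : (part.any fun P => (P.1 :: P.2).contains x) = true) :
    ∃ P ∈ part, x ∈ P.1 :: P.2 ∧ plen part x = P.2.length + 1 := by
  induction part with
  | nil => simp at h
  | cons P rest ih =>
    unfold plen
    cases hc : (P.1 :: P.2).contains x
    · rw [List.any_cons, hc, Bool.false_or] at h
      obtain ⟨Q, hQ, h1, h2⟩ := ih h
      exact ⟨Q, List.mem_cons_of_mem _ hQ, h1, h2⟩
    · exact ⟨P, List.mem_cons_self, List.contains_iff_mem.1 hc, rfl⟩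

theorem ncard_of_part {as : List (List ℕ)} {K : Subgroup (Equiv.Perm GolayPt)} (hK : Has K as)
    {part : List (ℕ × List ℕ)} (h : partOK as part = true) {x : ℕ} (hx : x < 24) :
    (MulAction.orbit (gp as) (pt x)).ncard = plen part x := by
  have h' := h
  rw [partOK, Bool.and_eq_true] at h
  obtain ⟨P, hP, h1, h2⟩ := plen_mem (List.all_eq_true.1 h.2 x (mem_pts hx))
  rw [h2]
  exact (orbit_spec hK h' hP h1).2

def stageOK (part : List (ℕ × List ℕ)) (F : List ℕ) (p m : ℕ) (C : List ℕ) : Bool :=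
  Nat.blt p 24 && (!(F.contains p) && (Nat.beq (plen part p) m && (Nat.ble C.length (2 * m) &&
    ((F.all fun x => Nat.blt x 24) && pts.all fun x => !(Nat.beq (plen part x) m) || (F.contains x || C.contains x)))))

theorem stage' {N : Subgroup (Equiv.Perm GolayPt)} {F : List ℕ} {as : List (List ℕ)} (h : St N (gp as) F)
    {K : Subgroup (Equiv.Perm GolayPt)} (hK : Has K as) {part : List (ℕ × List ℕ)} (hp : partOK as part = true)
    (p m : ℕ) (C : List ℕ) (hs : stageOK part F p m C = true) (h2 : IsPGroup 2 (fixK N [p])) : IsPGroup 2 N := by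
  simp only [stageOK, Bool.and_eq_true, Bool.not_eq_true'] at hs
  obtain ⟨h3, h4, h5, h6, h7, h8⟩ := hs
  refine stage h (blt_lt h3) (fun h9 => ?_) (fun x hx => blt_lt (List.all_eq_true.1 h7 x hx)) (m := m) ?_ C.toFinset ?_ ?_ h2
  · rw [List.contains_iff_mem.2 h9] at h4; exact absurd h4 (by decide)
  · rw [ncard_of_part hK hp (blt_lt h3)]; exact Nat.eq_of_beq_eq_true h5
  · intro x hx hm
    have h9 := List.all_eq_true.1 h8 x (mem_pts hx)
    rw [← ncard_of_part hK hp hx, hm] at h9
    have h10 : Nat.beq m m = true := Nat.beq_refl m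
    rw [h10] at h9
    simp only [Bool.not_true, Bool.false_or, Bool.or_eq_true] at h9
    rcases h9 with h9 | h9
    · exact Or.inl (List.contains_iff_mem.1 h9)
    · exact Or.inr (List.mem_toFinset.2 (List.contains_iff_mem.1 h9))
  · exact (List.toFinset_card_le C).trans (Nat.le_of_ble_eq_true h6)

def cardOK (as : List (List ℕ)) (ch : List (ℕ × List ℕ × List ℕ)) : Bool :=
  chainOK as ch [] && Nat.beq (chainProd ch) (2 ^ as.length)

theorem card_gp {as : List (List ℕ)} {es : List (ℕ × List ℕ)} {K : Subgroup (Equiv.Perm GolayPt)} (hK : Has K as)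
    (h : pcOK as es = true) {ch : List (ℕ × List ℕ × List ℕ)} (hc : cardOK as ch = true) :
    Nat.card (gp as) = 2 ^ as.length := by
  rw [cardOK, Bool.and_eq_true] at hc
  have h1 := chain_le (gp as) as (has_gp hK) ch [] hc.1
  rw [Nat.eq_of_beq_eq_true hc.2, Cfsg.Agent.H14.M24Gen.fixK_nil] at h1
  exact le_antisymm (card_gp_le hK h) h1

/-- a tail of the sequence is the stabilizer of a point -/
theorem fix_eq {as bs : List (List ℕ)} {K : Subgroup (Equiv.Perm GolayPt)} (hK : Has K as)
    (hA : Nat.card (gp as) = 2 ^ as.length) (hB : Nat.card (gp bs) = 2 ^ bs.length) (hsub : ∀ l ∈ bs, l ∈ as) {p m : ℕ}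
    (hp : p < 24) (hfix : fixes [p] bs = true) (hm : (MulAction.orbit (gp as) (pt p)).ncard = m)
    (hlen : 2 ^ as.length = m * 2 ^ bs.length) : fixK (gp as) [p] = gp bs := by
  have hle : gp bs ≤ fixK (gp as) [p] := by
    apply gp_le
    have hKb : Has (gp as) bs := fun l hl => has_gp hK l (hsub l hl)
    exact has_fixK' hKb hfix
  symm
  apply Subgroup.eq_of_le_of_card_ge hle
  have h1 := card_eq_orbit_mul (gp as) (pt p)
  have h2 := fixK_cons (gp as) [] p hp
  rw [Cfsg.Agent.H14.M24Gen.fixK_nil] at h2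
  rw [h2, hm, hA, hlen] at h1
  have hm0 : 0 < m := by
    rcases Nat.eq_zero_or_pos m with h0 | h0
    · rw [h0, zero_mul] at hlen
      exact absurd hlen (by positivity)
    · exact h0
  rw [hB]
  exact (Nat.eq_of_mul_eq_mul_left hm0 h1).ge

/-- a point fixed by the group -/
theorem fix_same {as : List (List ℕ)} {K : Subgroup (Equiv.Perm GolayPt)} (hK : Has K as) {p : ℕ}
    (hfix : fixes [p] as = true) : fixK (gp as) [p] = gp as := by
  apply le_antisymm
  · intro g hg; exact (mem_fixK.1 hg).1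
  · exact gp_le (has_fixK' (has_gp hK) hfix)

theorem orbit_pair {as : List (List ℕ)} {K : Subgroup (Equiv.Perm GolayPt)} (hK : Has K as)
    {part : List (ℕ × List ℕ)} (h : partOK as part = true) {p q : ℕ} (hpq : (p, [q]) ∈ part) :
    MulAction.orbit (gp as) (pt p) = pt '' ({p, q} : Set ℕ) := by
  rw [(orbit_spec hK h hpq (x := p) (by simp)).1]
  congr 1
  ext x; simp

theorem fixK_fixK (N : Subgroup (Equiv.Perm GolayPt)) (l l' : List ℕ) : fixK (fixK N l) l' ≤ fixK N l := fun g hg =>
  (mem_fixK.1 hg).1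

theorem fixK_sub (N : Subgroup (Equiv.Perm GolayPt)) (l : List ℕ) : fixK N l ≤ N := fun g hg => (mem_fixK.1 hg).1

theorem isPGroup_of_sq {N : Subgroup (Equiv.Perm GolayPt)} (h : ∀ g ∈ N, g * g = 1) : IsPGroup 2 N := fun g =>
  ⟨1, Subtype.ext (by rw [pow_one, pow_two]; exact h g g.2)⟩

theorem sq_of_le {N : Subgroup (Equiv.Perm GolayPt)} (hN : N ≤ M24) (hfix : ∀ n ∈ N, ∀ x ∈ [7, 4, 3, 2, 1, 0], n (pt x) = pt x) :
    IsPGroup 2 N := by
  apply isPGroup_of_sq
  intro g hg
  apply Cfsg.Agent.H7.M24d.sq_fix_octad0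
  refine mem_fixK.2 ⟨hN hg, fun q hq => ?_⟩
  have := hfix g hg _ hq
  rwa [pt_ix] at this

theorem chain_mul (K : Subgroup (Equiv.Perm GolayPt)) (G : List (List ℕ)) (hG : Has K G) :
    ∀ (c : List (ℕ × List ℕ × List ℕ)) (l : List ℕ), chainOK G c l = true →
      chainProd c * Nat.card (fixK K ((c.map Prod.fst).reverse ++ l)) ≤ Nat.card (fixK K l) := by
  intro c
  induction c with
  | nil => intro l _; simp [chainProd]
  | cons x rest ih =>
    obtain ⟨b, is, L⟩ := x
    intro l h
    simp only [chainOK, Bool.and_eq_true] at h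
    obtain ⟨h1, h2, h3, h4⟩ := h
    have hgs : Has K (is.map fun i => G.getD i (List.range 24)) := by
      intro r hr
      rw [List.mem_map] at hr
      obtain ⟨i, _, rfl⟩ := hr
      exact has_getD hG i
    have h5 := card_level K l b (blt_lt h1) _ (has_fixK' hgs h2) L h3
    refine le_trans ?_ h5
    have h6 := ih _ h4
    rw [List.map_cons, List.reverse_cons, List.append_assoc, List.singleton_append]
    show (L.length + 1) * chainProd rest * _ ≤ _
    rw [mul_assoc]
    exact Nat.mul_le_mul_left _ h6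


end Cfsg.Agent.HL.Mat
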