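import Mathlib
import Cfsg.Agent.HL_Mat3
import Cfsg.Agent.H28_Six

set_option autoImplicit false
set_option linter.unusedVariables false

/-!
The 2-fusion systems of M22 and M23 are simple.
-/

namespace Cfsg.Agent.HL.Mat

open Cfsg Cfsg.Agent.H7.Golay Cfsg.Agent.H7.Oct Cfsg.Agent.H7.M24 Cfsg.Agent.H14.M24Eng Cfsg.Agent.H14.M24Gen
open scoped Pointwise

/-- polycyclic sequence -/
def as22 : List (List ℕ) := [[0, 1, 22, 20, 4, 5, 17, 7, 8, 12, 21, 19, 9, 16, 18, 15, 13, 6, 14, 11, 3, 10, 2, 23],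
  [0, 1, 17, 14, 4, 5, 22, 7, 8, 13, 19, 21, 16, 9, 3, 15, 12, 2, 20, 10, 18, 11, 6, 23],
  [0, 1, 14, 17, 7, 5, 18, 4, 15, 9, 19, 11, 16, 13, 2, 8, 12, 3, 6, 10, 22, 21, 20, 23],
  [0, 2, 1, 19, 22, 6, 5, 17, 8, 9, 20, 18, 12, 13, 21, 15, 16, 7, 11, 3, 10, 14, 4, 23],
  [0, 21, 14, 22, 19, 11, 18, 10, 8, 9, 7, 5, 12, 13, 2, 15, 16, 20, 6, 4, 17, 1, 3, 23],
  [0, 4, 22, 14, 1, 7, 17, 5, 8, 9, 11, 10, 12, 13, 3, 15, 16, 6, 20, 21, 18, 19, 2, 23],
  [0, 5, 6, 20, 7, 1, 2, 4, 8, 9, 19, 21, 12, 13, 18, 15, 16, 22, 14, 10, 3, 11, 17, 23]]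

/-- relations -/
def es22 : List (ℕ × List ℕ) := [(0, [1, 3, 20, 56, 16, 32]),
  (0, [1, 26, 20, 8, 16]),
  (0, [3, 2, 12, 8]),
  (0, [1, 2, 4]),
  (0, [1, 2]),
  (0, [1]),
  (0, [])]

/-- central involution -/
def z22 : List ℕ := [0, 5, 6, 20, 7, 1, 2, 4, 8, 9, 19, 21, 12, 13, 18, 15, 16, 22, 14, 10, 3, 11, 17, 23]

/-- derivation -/
def ss22 : List (ℕ × ℕ × List ℕ × List ℕ × ℕ) := [(0, 0, [0, 9, 14, 10, 22, 12, 18, 2, 5, 15, 17, 16, 4, 8, 3, 7, 1, 11, 20, 6, 21, 13, 19, 23], [0, 1, 22, 20, 4, 5, 17, 7, 8, 12, 21, 19, 9, 16, 18, 15, 13, 6, 14, 11, 3, 10, 2, 23], 1),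
  (1, 0, [0, 10, 18, 2, 21, 19, 20, 11, 15, 5, 9, 12, 7, 1, 22, 8, 4, 3, 6, 13, 17, 16, 14, 23], [0, 1, 17, 14, 4, 5, 22, 7, 8, 13, 19, 21, 16, 9, 3, 15, 12, 2, 20, 10, 18, 11, 6, 23], 2),
  (2, 0, [0, 4, 14, 3, 10, 7, 2, 19, 9, 11, 8, 16, 5, 21, 22, 13, 1, 6, 20, 15, 17, 12, 18, 23], [0, 1, 14, 17, 7, 5, 18, 4, 15, 9, 19, 11, 16, 13, 2, 8, 12, 3, 6, 10, 22, 21, 20, 23], 4),
  (3, 0, [0, 4, 20, 19, 5, 1, 18, 7, 8, 13, 6, 22, 12, 16, 11, 15, 9, 3, 10, 17, 21, 2, 14, 23], [0, 4, 22, 14, 1, 7, 17, 5, 8, 9, 11, 10, 12, 13, 3, 15, 16, 6, 20, 21, 18, 19, 2, 23], 32),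
  (4, 0, [0, 1, 6, 2, 3, 21, 18, 22, 12, 16, 11, 17, 9, 8, 19, 15, 13, 7, 4, 5, 14, 20, 10, 23], [0, 21, 14, 22, 19, 11, 18, 10, 8, 9, 7, 5, 12, 13, 2, 15, 16, 20, 6, 4, 17, 1, 3, 23], 16),
  (5, 0, [0, 6, 2, 4, 3, 5, 1, 19, 9, 8, 17, 14, 13, 12, 11, 15, 16, 10, 18, 7, 22, 21, 20, 23], [0, 2, 1, 19, 22, 6, 5, 17, 8, 9, 20, 18, 12, 13, 21, 15, 16, 7, 11, 3, 10, 14, 4, 23], 8)]

def ch22 : List (ℕ × List ℕ × List ℕ) := [(9, [0, 1, 2, 3, 4, 5, 6], [16, 13, 12]),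
  (8, [2, 3, 4, 5, 6], [15]),
  (1, [3, 4, 5, 6], [3, 22, 21, 20, 19, 18, 17, 14, 11, 10, 7, 6, 5, 4, 2])]

def pa22 : List (ℕ × List ℕ) := [(0, []), (1, [3, 22, 21, 20, 19, 18, 17, 14, 11, 10, 7, 6, 5, 4, 2]), (8, [15]), (9, [16, 13, 12]), (23, [])]

-- tail from 2
def ch22t2 : List (ℕ × List ℕ × List ℕ) := [(8, [0, 1, 2, 3, 4], [15]),
  (1, [1, 2, 3, 4], [3, 22, 21, 20, 19, 18, 17, 14, 11, 10, 7, 6, 5, 4, 2])]

def pa22t2 : List (ℕ × List ℕ) := [(0, []), (1, [3, 22, 21, 20, 19, 18, 17, 14, 11, 10, 7, 6, 5, 4, 2]), (8, [15]), (9, []), (12, [16]), (13, []), (23, [])]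

-- tail from 3
def ch22t3 : List (ℕ × List ℕ × List ℕ) := [(1, [0, 1, 2, 3], [3, 22, 21, 20, 19, 18, 17, 14, 11, 10, 7, 6, 5, 4, 2])]

def pa22t3 : List (ℕ × List ℕ) := [(0, []), (1, [3, 22, 21, 20, 19, 18, 17, 14, 11, 10, 7, 6, 5, 4, 2]), (8, []), (9, []), (12, []), (13, []), (15, []), (16, []), (23, [])]

/-- tail -/
def as22t2 : List (List ℕ) := as22.drop 2
def es22t2 : List (ℕ × List ℕ) := es22.drop 2

noncomputable def P22 (l : List ℕ) : Bool := isM24 l && (Nat.beq (l.getD 23 0) 23 && Nat.beq (l.getD 0 0) 0)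

theorem hP22 : ∀ l, P22 l = true → ∃ g ∈ Spor.M22, Rep g l := by
  intro l h
  simp only [P22, Bool.and_eq_true] at h
  obtain ⟨g, hg, hr⟩ := exists_M24 h.1
  exact ⟨g, mem_M22.2 ⟨⟨hg, fix_of_rep hr 23 (by norm_num) h.2.1⟩, fix_of_rep hr 0 (by norm_num) h.2.2⟩, hr⟩

theorem hs22 : Has Spor.M22 as22 := by
  have h : (as22.all P22) = true := by decide +kernel
  intro l hl
  exact hP22 l (List.all_eq_true.1 h l hl)

theorem pc22 : pcOK as22 es22 = true := by decide +kernel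
theorem cen22 : cenOK as22 z22 (2 ^ as22.length) = true := by decide +kernel
theorem ss22_ok : stepsOK P22 as22 [z22] ss22 = true := by decide +kernel
theorem ch22_ok : cardOK as22 ch22 = true := by decide +kernel
theorem pa22_ok : partOK as22 pa22 = true := by decide +kernel
theorem cd22 : Nat.card (gp as22) = 2 ^ as22.length := card_gp hs22 pc22 ch22_ok

theorem sub22t2 : ∀ l ∈ as22t2, l ∈ as22 := fun l hl => List.mem_of_mem_drop hl
theorem hs22t2 : Has Spor.M22 as22t2 := fun l hl => hs22 l (sub22t2 l hl)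
theorem pc22t2 : pcOK as22t2 es22t2 = true := by decide +kernel
theorem ch22t2_ok : cardOK as22t2 ch22t2 = true := by decide +kernel
theorem pa22t2_ok : partOK as22t2 pa22t2 = true := by decide +kernel
theorem cd22t2 : Nat.card (gp as22t2) = 2 ^ as22t2.length := card_gp hs22t2 pc22t2 ch22t2_ok

theorem six22 {N : Subgroup (Equiv.Perm GolayPt)} (hN : N ≤ M24)
    (hfix : ∀ n ∈ N, ∀ x ∈ [15, 8, 13, 9, 0, 23], n (pt x) = pt x) : IsPGroup 2 N := by
  have : Fact (Nat.Prime 2) := ⟨Nat.prime_two⟩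
  have hE : ([15, 8, 13, 9, 0, 23].map pt).toFinset.card = 6 := by decide +kernel
  have hc := Cfsg.Agent.H28.Six.card_pw_in hE ?_
  · let Q : Subgroup (Equiv.Perm GolayPt) := fixK M24 [15, 8, 13, 9, 0, 23]
    have hQ : Nat.card Q = 2 ^ 4 := by
      rw [show (2 ^ 4 : ℕ) = 16 from rfl, ← hc]
      apply Nat.card_congr
      refine Equiv.subtypeEquivRight fun g => ?_
      show g ∈ fixK M24 [15, 8, 13, 9, 0, 23] ↔ _
      rw [mem_fixK]
      refine and_congr_right fun _ => ?_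
      constructor
      · intro h p hp
        rw [List.mem_toFinset, List.mem_map] at hp
        obtain ⟨x, hx, rfl⟩ := hp
        apply h
        have hx24 : x < 24 := by revert hx; simp; omega
        rw [ix_pt x hx24]; exact hx
      · intro h p hp
        apply h
        rw [List.mem_toFinset, List.mem_map]
        exact ⟨_, hp, pt_ix p⟩
    refine (IsPGroup.of_card hQ).to_le fun g hg => ?_
    refine mem_fixK.2 ⟨hN hg, fun q hq => ?_⟩
    have := hfix g hg _ hq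
    rwa [pt_ix] at this
  · refine ⟨ofMask 8499969, ?_, by decide +kernel⟩
    exact isOct_spec (by decide +kernel)

theorem norm22' (N : Subgroup (Equiv.Perm GolayPt)) (hN : N ≤ M24) (h : St N (gp as22) [0, 23]) : IsPGroup 2 N := by
  refine stage' h hs22 pa22_ok 9 4 [9, 12, 13, 16] (by decide +kernel) ?_
  have h1 := h.fixK (p := 9) (by norm_num)
  rw [fix_eq hs22 cd22 cd22t2 sub22t2 (p := 9) (m := 4) (by norm_num)
      (by decide +kernel) (by rw [ncard_of_part hs22 pa22_ok (by norm_num)]; decide +kernel) (by decide +kernel)] at h1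
  refine stage' h1 hs22t2 pa22t2_ok 13 1 [13] (by decide +kernel) ?_
  have h2 := h1.fixK (p := 13) (by norm_num)
  rw [fix_same hs22t2 (by decide +kernel)] at h2
  refine stage' h2 hs22t2 pa22t2_ok 8 2 [8, 15, 12, 16] (by decide +kernel) ?_
  have h5 := h2.twin (p := 8) (q := 15) (by norm_num) (by norm_num) (by norm_num)
    (orbit_pair hs22t2 pa22t2_ok (by decide +kernel))
  refine six22 ?_ (fun n hn x hx => h5 n hn x hx)
  exact (fixK_sub _ _).trans ((fixK_sub _ _).trans ((fixK_sub _ _).trans hN))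

theorem norm22 (N : Subgroup (Equiv.Perm GolayPt)) (hN : N ≤ Spor.M22) (h : St N (gp as22) []) : IsPGroup 2 N := by
  refine norm22' N (fun g hg => (mem_M22.1 (hN hg)).1.1) ⟨h.le, h.nrm, h.pgr, ?_⟩
  intro n hn x hx
  have := mem_M22.1 (hN hn)
  simp only [List.mem_cons, List.not_mem_nil, or_false] at hx
  rcases hx with rfl | rfl
  · exact this.2
  · exact this.1.2

theorem norm23 (N : Subgroup (Equiv.Perm GolayPt)) (hN : N ≤ Spor.M23) (h : St N (gp as22) []) : IsPGroup 2 N := by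
  have h0 : St N (gp as22) [23] := ⟨h.le, h.nrm, h.pgr, by
    intro n hn x hx
    rw [List.mem_singleton] at hx
    subst hx
    exact (mem_M23.1 (hN hn)).2⟩
  refine stage' h0 hs22 pa22_ok 0 1 [0] (by decide +kernel) ?_
  have h1 := h0.fixK (p := 0) (by norm_num)
  rw [fix_same hs22 (by decide +kernel)] at h1
  exact norm22' _ ((fixK_sub _ _).trans fun g hg => (mem_M23.1 (hN hg)).1) h1

theorem simple22 (S : Sylow 2 Spor.M22) : (groupFusionSystem (S : Subgroup Spor.M22)).IsSimple 2 :=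
  mat_simple hs22 pc22 (by simp [as22]) (m := 3465) (by decide) (by rw [card_M22]; decide +kernel) cd22
    (lz := z22) (by decide +kernel) cen22 hP22 ss22_ok norm22 S

theorem le23 : Spor.M22 ≤ Spor.M23 := inf_le_left

theorem simple23 (S : Sylow 2 Spor.M23) : (groupFusionSystem (S : Subgroup Spor.M23)).IsSimple 2 :=
  mat_simple (M := Spor.M23) (fun l hl => by obtain ⟨g, hg, hr⟩ := hs22 l hl; exact ⟨g, le23 hg, hr⟩) pc22 (by simp [as22])
    (m := 79695) (by decide) (by rw [card_M23]; decide +kernel) cd22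
    (lz := z22) (by decide +kernel) cen22 (fun l h => by obtain ⟨g, hg, hr⟩ := hP22 l h; exact ⟨g, le23 hg, hr⟩)
    ss22_ok norm23 S

end Cfsg.Agent.HL.Mat
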