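import Mathlib
import Cfsg.Agent.HL_Mat22

set_option autoImplicit false
set_option linter.unusedVariables false
set_option linter.unusedSectionVars false

/-!
Simplicity of the 2-fusion system of a group containing a subgroup of odd index with the same property.
-/

namespace Cfsg.Agent.H26.FusM

open Cfsg Cfsg.FusionSystem

/-- passing to a group containing an image of odd index -/
theorem up {H G : Type*} [Group H] [Finite H] [Group G] [Finite G] (ι : H →* G) (hι : Function.Injective ι) (S : Sylow 2 H)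
    (hodd : ¬ 2 ∣ ι.range.index) (hS : (S : Subgroup H) ≠ ⊥)
    (ha : ∀ T : Subgroup H, T ≤ (S : Subgroup H) → (∀ t ∈ T, ∀ g : H, g * t * g⁻¹ ∈ (S : Subgroup H) → g * t * g⁻¹ ∈ T) →
      T = ⊥ ∨ T = (S : Subgroup H))
    (hN : ∀ g : G, (∀ s ∈ (S : Subgroup H), ∃ s' ∈ (S : Subgroup H), g * ι s * g⁻¹ = ι s') →
      (∀ s ∈ (S : Subgroup H), ∃ s' ∈ (S : Subgroup H), g⁻¹ * ι s * g = ι s') → g ∈ ι.range)
    (hb : ∀ g ∈ Subgroup.normalizer ((S : Subgroup H) : Set H), (orderOf g).Coprime 2 → ∀ s ∈ (S : Subgroup H), g * s = s * g)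
    (S' : Sylow 2 G) : (groupFusionSystem (S' : Subgroup G)).IsSimple 2 := by
  haveI : Fact (Nat.Prime 2) := ⟨Nat.prime_two⟩
  have hPG : IsPGroup 2 ((S : Subgroup H).map ι) := S.isPGroup'.map _
  have hidx : ¬ 2 ∣ ((S : Subgroup H).map ι).index := by
    rw [Subgroup.index_map_of_injective _ hι]
    intro h
    rcases (Nat.Prime.dvd_mul Nat.prime_two).1 h with h1 | h1
    · exact S.not_dvd_index h1
    · exact hodd h1
  let S1 : Sylow 2 G := hPG.toSylow hidx
  have hS1 : (S1 : Subgroup G) = (S : Subgroup H).map ι := rfl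
  have hmem : ∀ h : H, ι h ∈ (S1 : Subgroup G) ↔ h ∈ (S : Subgroup H) := by
    intro h
    rw [hS1]
    constructor
    · rintro ⟨x, hx, hxh⟩
      rw [← hι hxh]; exact hx
    · intro hh; exact ⟨h, hh, rfl⟩
  refine Cfsg.Agent.HL.FusCrit.simple_conj S1 S' ?_
  apply Cfsg.Agent.HL.FusCrit.simple_of_norm S1
  · intro h
    apply hS
    rw [eq_bot_iff]
    intro x hx
    have := (hmem x).2 hx
    rw [h, Subgroup.mem_bot] at this
    rw [Subgroup.mem_bot]
    exact hι (this.trans (map_one ι).symm)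
  · intro T hTS hT
    have hTr : T ≤ ι.range := by
      intro t ht
      obtain ⟨x, hx, rfl⟩ := hTS ht
      exact ⟨x, rfl⟩
    have hTm : (T.comap ι).map ι = T := Subgroup.map_comap_eq_self hTr
    rcases ha (T.comap ι) (fun x hx => (hmem x).1 (hTS hx)) (fun t ht g hg => by
      have h1 : ι g * ι t * (ι g)⁻¹ ∈ (S1 : Subgroup G) := by
        rw [← map_inv, ← map_mul, ← map_mul]; exact (hmem _).2 hg
      have h2 := hT (ι t) ht (ι g) h1
      show ι (g * t * g⁻¹) ∈ T
      rwa [map_mul, map_mul, map_inv]) with h | h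
    · left
      rw [← hTm, h, Subgroup.map_bot]
    · right
      rw [← hTm, h]; rfl
  · intro g hg hgo s hs
    obtain ⟨h, rfl⟩ := hN g (by
      intro s hs
      have h1 := (Subgroup.mem_normalizer_iff.1 hg (ι s)).1 ((hmem s).2 hs)
      obtain ⟨s', hs', h2⟩ := h1
      exact ⟨s', hs', h2.symm⟩) (by
      intro s hs
      have h1 := (Subgroup.mem_normalizer_iff.1 (inv_mem hg) (ι s)).1 ((hmem s).2 hs)
      rw [inv_inv] at h1
      obtain ⟨s', hs', h2⟩ := h1
      exact ⟨s', hs', h2.symm⟩)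
    obtain ⟨x, hx, rfl⟩ := hs
    rw [← map_mul, ← map_mul]
    congr 1
    apply hb h _ _ x hx
    · rw [Subgroup.mem_normalizer_iff]
      intro y
      have h1 := Subgroup.mem_normalizer_iff.1 hg (ι y)
      rw [← map_inv, ← map_mul, ← map_mul] at h1
      exact ((hmem y).symm.trans h1).trans (hmem _)
    · rwa [orderOf_injective ι hι] at hgo

section Mat

open Cfsg.Agent.H7.Golay Cfsg.Agent.H7.Oct Cfsg.Agent.H7.M24 Cfsg.Agent.H14.M24Eng Cfsg.Agent.H14.M24Gen Cfsg.Agent.HL.Mat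
open scoped Pointwise

/-- the part of the lead's `mat_simple` that is needed for larger groups -/
theorem mat_parts {M : Subgroup (Equiv.Perm GolayPt)} {as : List (List ℕ)} {es : List (ℕ × List ℕ)} {lz : List ℕ}
    (hM : Has M as) (hpc : pcOK as es = true) (hne : as ≠ []) {m : ℕ} (hm : Odd m) (hcM : Nat.card M = 2 ^ as.length * m)
    (hcard : Nat.card (gp as) = 2 ^ as.length) (hz : lz ∈ as) (hcen : cenOK as lz (2 ^ as.length) = true)
    {P : List ℕ → Bool} (hP : ∀ l, P l = true → ∃ g ∈ M, Rep g l)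
    {ss : List (ℕ × ℕ × List ℕ × List ℕ × ℕ)} (hss : stepsOK P as [lz] ss = true)
    (hN : ∀ N : Subgroup (Equiv.Perm GolayPt), N ≤ M → St N (gp as) [] → IsPGroup 2 N) :
    ∃ S0 : Sylow 2 M, (S0 : Subgroup M) = (gp as).subgroupOf M ∧ (S0 : Subgroup M) ≠ ⊥ ∧
      (∀ T : Subgroup M, T ≤ (S0 : Subgroup M) → (∀ t ∈ T, ∀ g : M, g * t * g⁻¹ ∈ (S0 : Subgroup M) → g * t * g⁻¹ ∈ T) →
        T = ⊥ ∨ T = (S0 : Subgroup M)) ∧
      (∀ g ∈ Subgroup.normalizer ((S0 : Subgroup M) : Set M), (orderOf g).Coprime 2 → ∀ s ∈ (S0 : Subgroup M), g * s = s * g) := by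
  have hfact : Fact (Nat.Prime 2) := ⟨Nat.prime_two⟩
  obtain ⟨hw, hpg⟩ := pc_spec hM hpc
  have hle : gp as ≤ M := gp_le hM
  have hpg' : IsPGroup 2 ((gp as).subgroupOf M) := by
    have e := Subgroup.subgroupOfEquivOfLe hle
    exact hpg.of_equiv e.symm
  have hcS : Nat.card ((gp as).subgroupOf M) = 2 ^ as.length := by
    rw [Nat.card_congr (Subgroup.subgroupOfEquivOfLe hle).toEquiv, hcard]
  have hidx : ¬ 2 ∣ ((gp as).subgroupOf M).index := by
    have h1 := ((gp as).subgroupOf M).card_mul_index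
    rw [hcS, hcM] at h1
    have h2 : ((gp as).subgroupOf M).index = m := Nat.eq_of_mul_eq_mul_left (by positivity) h1
    rw [h2]
    intro h3
    exact (Nat.not_even_iff_odd.2 hm) (even_iff_two_dvd.2 h3)
  let S0 : Sylow 2 M := hpg'.toSylow hidx
  have hS0 : (S0 : Subgroup M) = (gp as).subgroupOf M := rfl
  refine ⟨S0, hS0, ?_, ?_, ?_⟩
  · intro h
    have h1 : Nat.card (S0 : Subgroup M) = 1 := by rw [h]; simp
    rw [hS0, hcS] at h1
    have h2 : as.length ≠ 0 := by
      intro h3; exact hne (List.length_eq_zero_iff.1 h3)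
    have : 2 ^ 1 ≤ 2 ^ as.length := Nat.pow_le_pow_right (by norm_num) (by omega)
    omega
  · intro T hTS hT
    by_cases hT1 : T = ⊥
    · exact Or.inl hT1
    right
    -- T meets the centre of S0
    have hTfin : Finite T := inferInstance
    have hTn : ∀ s ∈ (S0 : Subgroup M), ∀ t ∈ T, s * t * s⁻¹ ∈ T := fun s hs t ht =>
      hT t ht s (mul_mem (mul_mem hs (hTS ht)) (inv_mem hs))
    obtain ⟨c, hcT, hc1, hcc⟩ : ∃ c ∈ T, c ≠ 1 ∧ ∀ s ∈ (S0 : Subgroup M), c * s = s * c := by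
      -- the conjugation action of S0 on T
      let T' : Subgroup (S0 : Subgroup M) := T.subgroupOf (S0 : Subgroup M)
      have hT'n : T'.Normal := by
        constructor
        intro t ht s
        exact hTn s s.2 t ht
      have hT'ne : T' ≠ ⊥ := by
        intro h
        apply hT1
        rw [eq_bot_iff]
        intro t ht
        have : (⟨t, hTS ht⟩ : (S0 : Subgroup M)) ∈ T' := ht
        rw [h, Subgroup.mem_bot] at this
        rw [Subgroup.mem_bot]
        exact congrArg Subtype.val this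
      have hp2 : IsPGroup 2 (S0 : Subgroup M) := S0.isPGroup'
      have : Group.IsNilpotent (S0 : Subgroup M) := hp2.isNilpotent
      have hnt := Cfsg.Agent.H1.Nilp.normal_inf_center_ne_bot T' hT'ne
      obtain ⟨⟨c, hc⟩, hc1⟩ := Subgroup.ne_bot_iff_exists_ne_one.1 hnt
      refine ⟨c, hc.1, fun h => hc1 (Subtype.ext (Subtype.ext h)), fun s hs => ?_⟩
      have := Subgroup.mem_center_iff.1 hc.2 ⟨s, hs⟩
      exact (congrArg Subtype.val this).symm
    have hz' : ∃ g ∈ M, Rep g lz := hM lz hz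
    obtain ⟨z, hzM, hrz⟩ := hz'
    have hcz : (c : Equiv.Perm GolayPt) = z := by
      have h1 : (c : Equiv.Perm GolayPt) ∈ gp as := hTS hcT
      have h2 : ∀ s ∈ gp as, (c : Equiv.Perm GolayPt) * s = s * c := by
        intro s hs
        have := hcc ⟨s, hle hs⟩ (show (⟨s, hle hs⟩ : M) ∈ (gp as).subgroupOf M from hs)
        exact congrArg Subtype.val this
      rcases cen_spec hM hpc hrz hcen h1 h2 with h3 | h3
      · exact absurd (Subtype.ext h3) hc1
      · exact h3
    have hst := steps_spec (T := T.map M.subtype) hM hP (by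
      rintro _ ⟨t, ht, rfl⟩ h hh hmem
      have h1 : (⟨h, hh⟩ : M) * t * (⟨h, hh⟩ : M)⁻¹ ∈ (S0 : Subgroup M) := hmem
      exact ⟨_, hT t ht ⟨h, hh⟩ h1, rfl⟩) (Kn := [lz]) (ss := ss) (by
        intro l hl
        rw [List.mem_singleton] at hl
        subst hl
        exact ⟨z, ⟨c, hcT, hcz⟩, hrz⟩) hss
    apply le_antisymm hTS
    intro s hs
    obtain ⟨t, ht, hts⟩ := hst (show (s : Equiv.Perm GolayPt) ∈ gp as from hs)
    have : t = s := Subtype.ext hts
    rw [← this]; exact ht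
  · intro g hg hgo s hs
    have hN2 := hN ((Subgroup.normalizer ((S0 : Subgroup M) : Set M)).map M.subtype) (by
      rintro _ ⟨x, -, rfl⟩; exact x.2) ⟨?_, ?_, hpg, fun _ _ x hx => by simp at hx⟩
    · obtain ⟨k, hk⟩ := hN2 ⟨(g : Equiv.Perm GolayPt), ⟨g, hg, rfl⟩⟩
      have hk' : g ^ 2 ^ k = 1 := by
        have := congrArg Subtype.val hk
        exact Subtype.ext this
      have h1 : orderOf g ∣ 2 ^ k := orderOf_dvd_of_pow_eq_one hk'
      have h2 : orderOf g = 1 := Nat.Coprime.eq_one_of_dvd (hgo.pow_right k) h1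
      rw [orderOf_eq_one_iff] at h2
      rw [h2, one_mul, mul_one]
    · intro x hx
      exact ⟨⟨x, hle hx⟩, Subgroup.le_normalizer (show (⟨x, hle hx⟩ : M) ∈ (gp as).subgroupOf M from hx), rfl⟩
    · rintro _ ⟨n, hn, rfl⟩ x hx
      have := (Subgroup.mem_normalizer_iff.1 hn ⟨x, hle hx⟩).1 (show (⟨x, hle hx⟩ : M) ∈ (gp as).subgroupOf M from hx)
      exact this


end Mat

end Cfsg.Agent.H26.FusM
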