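import Mathlib
import Cfsg.Agent.H7_L7

set_option autoImplicit false

/-!
Fast enumeration of the minimal vectors, and the descent engine for orbits of stabilisers in `Co0`.
-/

namespace Cfsg.Agent.H7.L8

open Cfsg Cfsg.Agent.H7.Golay Cfsg.Agent.H7.Oct Cfsg.Agent.H7.L1 Cfsg.Agent.H7.L2 Cfsg.Agent.H7.L3 Cfsg.Agent.H7.L4
  Cfsg.Agent.H7.L5 Cfsg.Agent.H7.L6 Cfsg.Agent.H7.L7

/-! ### recursor versions of list functions -/

/-- quick conjunction -/
noncomputable def andR (a b : Bool) : Bool := Bool.rec false b a

theorem andR_eq (a b : Bool) : andR a b = (a && b) := by cases a <;> rfl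

/-- quick `all` -/
noncomputable def allR {α : Type} (P : α → Bool) (l : List α) : Bool :=
  List.rec (motive := fun _ => Bool) true (fun a _ ih => Bool.rec false ih (P a)) l

theorem allR_eq {α : Type} (P : α → Bool) (l : List α) : allR P l = l.all P := by
  induction l with
  | nil => rfl
  | cons a l ih =>
    have : allR P (a :: l) = Bool.rec false (allR P l) (P a) := rfl
    rw [this, ih, List.all_cons]
    cases P a <;> rfl

/-- quick sum -/
noncomputable def sumR {α : Type} (f : α → ℕ) (l : List α) : ℕ :=
  List.rec (motive := fun _ => ℕ) 0 (fun a _ ih => Nat.add (f a) ih) l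

theorem sumR_eq {α : Type} (f : α → ℕ) (l : List α) : sumR f l = (l.map f).sum := by
  induction l with
  | nil => rfl
  | cons a l ih =>
    have : sumR f (a :: l) = f a + sumR f l := rfl
    rw [this, ih, List.map_cons, List.sum_cons]

/-- quick indicator -/
noncomputable def b2n (b : Bool) : ℕ := Bool.rec 0 1 b

theorem b2n_eq (b : Bool) : b2n b = if b = true then 1 else 0 := by cases b <;> rfl

theorem sumR_count {α : Type} (P : α → Bool) (l : List α) : sumR (fun a => b2n (P a)) l = l.countP P := by
  induction l with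
  | nil => rfl
  | cons a l ih =>
    have : sumR (fun a => b2n (P a)) (a :: l) = b2n (P a) + sumR (fun a => b2n (P a)) l := rfl
    rw [this, ih, b2n_eq, List.countP_cons, add_comm]

/-! ### family B -/

/-- quick version of `evAll` -/
noncomputable def evA (P : ℕ → Bool) (last : ℕ) (l : List ℕ) : ℕ → Bool → Bool :=
  List.rec (motive := fun _ => ℕ → Bool → Bool) (fun x par => Bool.rec (P (Nat.add x last)) (P x) par)
    (fun p _ ih x par => Bool.rec false (ih (Nat.add x p) (Bool.rec true false par)) (ih x par)) l

/-- quick version of `evCnt` -/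
noncomputable def evN (P : ℕ → Bool) (last : ℕ) (l : List ℕ) : ℕ → Bool → ℕ :=
  List.rec (motive := fun _ => ℕ → Bool → ℕ) (fun x par => Bool.rec (b2n (P (Nat.add x last))) (b2n (P x)) par)
    (fun p _ ih x par => Nat.add (ih x par) (ih (Nat.add x p) (Bool.rec true false par))) l

theorem evA_eq (P : ℕ → Bool) (last : ℕ) (l : List ℕ) (x : ℕ) (par : Bool) :
    evA P last l x par = (evC (l ++ [last]) x par).all P := by
  induction l generalizing x par with
  | nil => cases par <;> simp [evA, evC]
  | cons p l ih =>
    have h1 : evA P last (p :: l) x par = Bool.rec false (evA P last l (Nat.add x p) (Bool.rec true false par))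
      (evA P last l x par) := rfl
    have h2 : (Bool.rec true false par : Bool) = !par := by cases par <;> rfl
    rw [h1, h2, ih, ih, List.cons_append, evC, List.all_append]
    cases (evC (l ++ [last]) x par).all P <;> rfl

theorem evN_eq (P : ℕ → Bool) (last : ℕ) (l : List ℕ) (x : ℕ) (par : Bool) :
    evN P last l x par = (evC (l ++ [last]) x par).countP P := by
  induction l generalizing x par with
  | nil => cases par <;> simp [evN, evC, b2n_eq, List.countP_cons, List.countP_nil]
  | cons p l ih =>
    have h1 : evN P last (p :: l) x par = evN P last l x par + evN P last l (Nat.add x p) (Bool.rec true false par) := rfl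
    have h2 : (Bool.rec true false par : Bool) = !par := by cases par <;> rfl
    rw [h1, h2, ih, ih, List.cons_append, evC, List.countP_append]

theorem evC_perm (a : ℕ) (t : List ℕ) (x : ℕ) (par : Bool) : List.Perm (evC (a :: t) x par) (evC (t ++ [a]) x par) := by
  induction t generalizing x par with
  | nil => exact List.Perm.refl _
  | cons b t ih =>
    have h1 : evC (a :: b :: t) x par =
      (evC t x par ++ evC t (Nat.add x b) (!par)) ++ (evC t (Nat.add x a) (!par) ++ evC t (Nat.add (Nat.add x a) b) (!!par)) := rfl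
    have h2 : evC ((b :: t) ++ [a]) x par = evC (t ++ [a]) x par ++ evC (t ++ [a]) (Nat.add x b) (!par) := rfl
    have h3 : evC (a :: t) x par ++ evC (a :: t) (Nat.add x b) (!par) =
      (evC t x par ++ evC t (Nat.add x a) (!par)) ++ (evC t (Nat.add x b) (!par) ++ evC t (Nat.add (Nat.add x b) a) (!!par)) := rfl
    rw [h1, h2]
    refine List.Perm.trans ?_ (List.Perm.append (ih x par) (ih (Nat.add x b) (!par)))
    rw [h3]
    have h4 : Nat.add (Nat.add x a) b = Nat.add (Nat.add x b) a := by
      show x + a + b = x + b + a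
      ring
    rw [h4]
    rw [List.append_assoc, List.append_assoc]
    refine List.Perm.append_left _ ?_
    rw [← List.append_assoc, ← List.append_assoc]
    exact List.Perm.append_right _ List.perm_append_comm

/-- lanes of a mask among given indices -/
noncomputable def lstR (m : ℕ) (l : List ℕ) : List ℕ :=
  List.rec (motive := fun _ => List ℕ) [] (fun i _ ih => Bool.rec ih (List.cons (Nat.shiftLeft 4 (Nat.mul 16 i)) ih)
    (Nat.beq (Nat.land (Nat.shiftRight m i) 1) 1)) l

/-- lanes of a mask -/
noncomputable def lst (m : ℕ) : List ℕ := lstR m [0, 1, 2, 3, 4, 5, 6, 7, 8, 9, 10, 11, 12, 13, 14, 15, 16, 17, 18, 19,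
      20, 21, 22, 23]

theorem bit_eq (m i : ℕ) : Nat.beq (Nat.land (Nat.shiftRight m i) 1) 1 = m.testBit i := by
  rw [land_one]
  cases m.testBit i <;> rfl

theorem lst_eq (m : ℕ) : lst m = lanes m := by
  have key : ∀ l : List ℕ, lstR m l = (l.filter fun i => m.testBit i).map ln4 := by
    intro l
    induction l with
    | nil => rfl
    | cons i l ih =>
      have h1 : lstR m (i :: l) = (Bool.rec (lstR m l) (List.cons (Nat.shiftLeft 4 (Nat.mul 16 i)) (lstR m l))
        (Nat.beq (Nat.land (Nat.shiftRight m i) 1) 1) : List ℕ) := rfl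
      rw [h1, bit_eq, ih, List.filter_cons]
      cases m.testBit i
      · rfl
      · rfl
  exact key (List.range 24)

/-- all sign choices on an octad -/
noncomputable def octP (P : ℕ → Bool) (m : ℕ) : Bool :=
  List.rec (motive := fun _ => Bool) true (fun a t _ => evA P a t (Nat.sub z0 (Nat.mul 2 (spread m))) true) (lst m)

/-- number of sign choices on an octad -/
noncomputable def octN (P : ℕ → Bool) (m : ℕ) : ℕ :=
  List.rec (motive := fun _ => ℕ) 0 (fun a t _ => evN P a t (Nat.sub z0 (Nat.mul 2 (spread m))) true) (lst m)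

theorem octP_eq (P : ℕ → Bool) (m : ℕ) (h : m ∈ octL) :
    octP P m = evAll P (lanes m) (Nat.sub z0 (Nat.mul 2 (spread m))) true := by
  have hne : lanes m ≠ [] := by
    intro h0
    have h1 : (pts m).length = 8 := by
      have h2 : (pts m).toFinset = ofMask m := by ext p; simp [mem_pts]
      rw [← List.toFinset_card_of_nodup (nodup_pts m), h2]
      exact ((ofMask_mem_octads (octL_lt h)).2 h).2
    rw [pts, List.length_map] at h1
    rw [lanes, List.map_eq_nil_iff] at h0
    rw [h0] at h1
    simp at h1
  rw [octP, lst_eq]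
  cases hl : lanes m with
  | nil => exact absurd hl hne
  | cons a t =>
    show evA P a t _ true = _
    rw [evA_eq, evAll_eq]
    exact ((evC_perm a t _ true).all_eq).symm

theorem octN_eq (P : ℕ → Bool) (m : ℕ) (h : m ∈ octL) :
    octN P m = evCnt P (lanes m) (Nat.sub z0 (Nat.mul 2 (spread m))) true := by
  have hne : lanes m ≠ [] := by
    intro h0
    have h1 : (pts m).length = 8 := by
      have h2 : (pts m).toFinset = ofMask m := by ext p; simp [mem_pts]
      rw [← List.toFinset_card_of_nodup (nodup_pts m), h2]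
      exact ((ofMask_mem_octads (octL_lt h)).2 h).2
    rw [pts, List.length_map] at h1
    rw [lanes, List.map_eq_nil_iff] at h0
    rw [h0] at h1
    simp at h1
  rw [octN, lst_eq]
  cases hl : lanes m with
  | nil => exact absurd hl hne
  | cons a t =>
    show evN P a t _ true = _
    rw [evN_eq, evCnt_eq]
    exact ((evC_perm a t _ true).countP_eq _).symm

/-! ### family C -/

/-- quick version of `cC` -/
noncomputable def cCq (m b i : ℕ) : ℕ :=
  Bool.rec (Nat.add b (Nat.shiftLeft 4 (Nat.mul 16 i))) (Nat.sub b (Nat.shiftLeft 4 (Nat.mul 16 i)))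
    (Nat.beq (Nat.land (Nat.shiftRight m i) 1) 1)

theorem cCq_eq (m b i : ℕ) : cCq m b i = cC m b i := by
  rw [cCq, bit_eq, cC]
  cases m.testBit i <;> rfl

/-- indices below 24 -/
def r24 : List ℕ := [0, 1, 2, 3, 4, 5, 6, 7, 8, 9, 10, 11, 12, 13, 14, 15, 16, 17, 18, 19, 20, 21, 22, 23]

theorem r24_eq : r24 = List.range 24 := rfl

/-- all positions for a code word -/
noncomputable def cwP (P : ℕ → Bool) (m : ℕ) : Bool :=
  allR (fun i => P (cCq m (Nat.add (Nat.sub z0 ones) (Nat.mul 2 (spread m))) i)) r24

/-- number of positions for a code word -/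
noncomputable def cwN (P : ℕ → Bool) (m : ℕ) : ℕ :=
  sumR (fun i => b2n (P (cCq m (Nat.add (Nat.sub z0 ones) (Nat.mul 2 (spread m))) i))) r24

theorem cwP_eq (P : ℕ → Bool) (m : ℕ) : cwP P m =
    (List.range 24).all fun i => P (cC m (Nat.add (Nat.sub z0 ones) (Nat.mul 2 (spread m))) i) := by
  rw [cwP, allR_eq, r24_eq]
  congr 1
  funext i
  rw [cCq_eq]

theorem cwN_eq (P : ℕ → Bool) (m : ℕ) : cwN P m =
    (List.range 24).countP fun i => P (cC m (Nat.add (Nat.sub z0 ones) (Nat.mul 2 (spread m))) i) := by
  rw [cwN, sumR_count, r24_eq]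
  congr 1
  funext i
  rw [cCq_eq]

/-- quick test for a list of octads -/
noncomputable def qB (l : List ℕ) (P : ℕ → Bool) : Bool := allR (octP P) l

/-- quick test for a list of code words -/
noncomputable def qC (l : List ℕ) (P : ℕ → Bool) : Bool := allR (cwP P) l

/-- quick count for a list of octads -/
noncomputable def nB (l : List ℕ) (P : ℕ → Bool) : ℕ := sumR (octN P) l

/-- quick count for a list of code words -/
noncomputable def nC (l : List ℕ) (P : ℕ → Bool) : ℕ := sumR (cwN P) l

theorem qB_eq (l : List ℕ) (hl : ∀ m ∈ l, m ∈ octL) (P : ℕ → Bool) : qB l P = allB l P := by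
  rw [qB, allR_eq, allB, Bool.eq_iff_iff, List.all_eq_true, List.all_eq_true]
  refine forall_congr' fun m => forall_congr' fun hm => ?_
  rw [octP_eq P m (hl m hm)]

theorem qC_eq (l : List ℕ) (P : ℕ → Bool) : qC l P = allC l P := by
  rw [qC, allR_eq, allC, Bool.eq_iff_iff, List.all_eq_true, List.all_eq_true]
  refine forall_congr' fun m => forall_congr' fun hm => ?_
  rw [cwP_eq]

theorem nB_eq (l : List ℕ) (hl : ∀ m ∈ l, m ∈ octL) (P : ℕ → Bool) : nB l P = cntB l P := by
  rw [nB, sumR_eq, cntB]
  exact congrArg List.sum (List.map_congr_left fun m hm => octN_eq P m (hl m hm))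

theorem nC_eq (l : List ℕ) (P : ℕ → Bool) : nC l P = cntC l P := by
  rw [nC, sumR_eq, cntC]
  exact congrArg List.sum (List.map_congr_left fun m hm => cwN_eq P m)

/-- quick test of all minimal vectors -/
theorem q_min (P : ℕ → Bool) (hA : allA P = true) (hB : qB octL P = true) (hC : qC codeL P = true)
    {x : GolayPt → ℤ} (hx : x ∈ leechLattice) (hn : sqNorm x = 32) : P (encL x) = true :=
  all_min P hA (by rw [← qB_eq octL (fun m h => h)]; exact hB) (by rw [← qC_eq]; exact hC) hx hn

/-- quick count of minimal vectors -/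
theorem n_min (P : ℕ → Bool) (Q : (GolayPt → ℤ) → Prop) (a b c : ℕ)
    (h : ∀ x, x ∈ leechLattice → sqNorm x = 32 → (P (encL x) = true ↔ Q x))
    (hA : cntA P = a) (hB : nB octL P = b) (hC : nC codeL P = c) :
    {x : GolayPt → ℤ | x ∈ leechLattice ∧ sqNorm x = 32 ∧ Q x}.ncard = a + (b + c) := by
  rw [count_min P Q h, hA, ← nB_eq octL (fun m h => h), hB, ← nC_eq, hC]

theorem qB_append (l l' : List ℕ) (P : ℕ → Bool) : qB (l ++ l') P = (qB l P && qB l' P) := by
  rw [qB, qB, qB, allR_eq, allR_eq, allR_eq, List.all_append]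

theorem qC_append (l l' : List ℕ) (P : ℕ → Bool) : qC (l ++ l') P = (qC l P && qC l' P) := by
  rw [qC, qC, qC, allR_eq, allR_eq, allR_eq, List.all_append]

theorem nB_append (l l' : List ℕ) (P : ℕ → Bool) : nB (l ++ l') P = nB l P + nB l' P := by
  rw [nB, nB, nB, sumR_eq, sumR_eq, sumR_eq, List.map_append, List.sum_append]

theorem nC_append (l l' : List ℕ) (P : ℕ → Bool) : nC (l ++ l') P = nC l P + nC l' P := by
  rw [nC, nC, nC, sumR_eq, sumR_eq, sumR_eq, List.map_append, List.sum_append]

end Cfsg.Agent.H7.L8
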