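import Mathlib
import Cfsg.Agent.H7_L8

set_option autoImplicit false

/-!
Sign changes on packed codes, and the descent engine for orbits of pointwise stabilisers in `Co0`.
-/

namespace Cfsg.Agent.H7.L9

open Cfsg Cfsg.Agent.H7.Golay Cfsg.Agent.H7.Oct Cfsg.Agent.H7.L1 Cfsg.Agent.H7.L2 Cfsg.Agent.H7.L3 Cfsg.Agent.H7.L4
  Cfsg.Agent.H7.L5 Cfsg.Agent.H7.L6 Cfsg.Agent.H7.L7 Cfsg.Agent.H7.L8

/-! ### elements of `Co0` from additive isometries -/

theorem exists_co0 (f : (GolayPt → ℤ) → (GolayPt → ℤ)) (hadd : ∀ x y, f (x + y) = f x + f y)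
    (hn : ∀ x, sqNorm (f x) = sqNorm x) (hm : ∀ x ∈ leechLattice, f x ∈ leechLattice) :
    ∃ g : Co0, ∀ x : leechLattice, ((g • x : leechLattice) : GolayPt → ℤ) = f x := by
  let F : leechLattice → leechLattice := fun x => ⟨f x, hm x x.2⟩
  have hFadd : ∀ x y, F (x + y) = F x + F y := fun x y => Subtype.ext (hadd x y)
  have hFn : ∀ x : leechLattice, sqNorm (F x : GolayPt → ℤ) = sqNorm (x : GolayPt → ℤ) := fun x => hn x
  have hFinj : Function.Injective F := by
    intro x y h
    have h1 : F (x - y) = 0 := by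
      have h2 := hFadd (x - y) y
      rw [sub_add_cancel, h] at h2
      have : F (x - y) + F y = 0 + F y := by rw [← h2, zero_add]
      exact add_right_cancel this
    have h2 := hFn (x - y)
    rw [h1] at h2
    have h3 : ((0 : leechLattice) : GolayPt → ℤ) = 0 := rfl
    rw [h3, sqNorm_zero] at h2
    have h4 := sqNorm_eq_zero.1 h2.symm
    have h5 : x - y = 0 := Subtype.ext h4
    exact sub_eq_zero.1 h5
  have hFsurj : Function.Surjective F := by
    intro y
    let S := {x : leechLattice | sqNorm (x : GolayPt → ℤ) = sqNorm (y : GolayPt → ℤ)}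
    have hS : S.Finite := finite_norm _
    have hmaps : Set.MapsTo F S S := by
      intro x hx
      show sqNorm (F x : GolayPt → ℤ) = _
      rw [hFn]; exact hx
    obtain ⟨x, _, hx⟩ := Set.surj_on_of_inj_on_of_ncard_le (s := S) (t := S) (fun x _ => F x) hmaps
      (fun _ _ _ _ h => hFinj h) le_rfl hS y (show y ∈ S from rfl)
    exact ⟨x, hx.symm⟩
  let E : Equiv.Perm leechLattice := Equiv.ofBijective F ⟨hFinj, hFsurj⟩
  exact ⟨⟨E, fun v w => hFadd v w, fun v => hFn v⟩, fun x => rfl⟩

theorem smul_add' (g : Co0) (x y : leechLattice) : g • (x + y) = g • x + g • y := g.2.1 x y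

theorem norm_smul (g : Co0) (x : leechLattice) : sqNorm ((g • x : leechLattice) : GolayPt → ℤ) = sqNorm (x : GolayPt → ℤ) :=
  g.2.2 x

theorem dot_smul (g : Co0) (x y : leechLattice) :
    dotInt ((g • x : leechLattice) : GolayPt → ℤ) ((g • y : leechLattice) : GolayPt → ℤ) =
      dotInt (x : GolayPt → ℤ) (y : GolayPt → ℤ) := by
  have h1 := sqNorm_add ((g • x : leechLattice) : GolayPt → ℤ) ((g • y : leechLattice) : GolayPt → ℤ)
  have h2 := sqNorm_add (x : GolayPt → ℤ) (y : GolayPt → ℤ)
  have h3 := norm_smul g (x + y)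
  rw [smul_add'] at h3
  rw [norm_smul, norm_smul] at h1
  have h4 : ((g • x + g • y : leechLattice) : GolayPt → ℤ) = ((g • x : leechLattice) : GolayPt → ℤ) +
    ((g • y : leechLattice) : GolayPt → ℤ) := rfl
  have h5 : ((x + y : leechLattice) : GolayPt → ℤ) = (x : GolayPt → ℤ) + (y : GolayPt → ℤ) := rfl
  rw [h4, h5] at h3
  omega

/-! ### sign changes -/

/-- sign change on a set -/
def sgn (c : Finset GolayPt) (x : GolayPt → ℤ) : GolayPt → ℤ := fun i => if i ∈ c then -x i else x i

theorem exists_sgn {c : Finset GolayPt} (hc : c ∈ Cw) :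
    ∃ g : Co0, ∀ x : leechLattice, ((g • x : leechLattice) : GolayPt → ℤ) = sgn c x := by
  refine exists_co0 (sgn c) ?_ ?_ ?_
  · intro x y
    funext i
    simp only [sgn, Pi.add_apply]
    split <;> ring
  · intro x
    simp only [sqNorm, sgn]
    apply Finset.sum_congr rfl
    intro i _
    split <;> ring
  · intro x hx
    exact sign_mem hc hx

theorem land_add (a b c d : ℕ) (ha : a < 65536) (hc : c < 65536) :
    (a + 65536 * b) &&& (c + 65536 * d) = (a &&& c) + 65536 * (b &&& d) := by
  have h1 := Nat.div_add_mod ((a + 65536 * b) &&& (c + 65536 * d)) (2 ^ 16)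
  rw [Nat.and_div_two_pow, Nat.and_mod_two_pow] at h1
  have e1 : (a + 65536 * b) / 2 ^ 16 = b := by norm_num; omega
  have e2 : (c + 65536 * d) / 2 ^ 16 = d := by norm_num; omega
  have e3 : (a + 65536 * b) % 2 ^ 16 = a := by norm_num; omega
  have e4 : (c + 65536 * d) % 2 ^ 16 = c := by norm_num; omega
  rw [e1, e2, e3, e4] at h1
  rw [← h1]
  norm_num
  ring

theorem land_pk (f : ℕ → ℕ) (b : ℕ → Bool) (n : ℕ) (hf : ∀ i < n, f i < 65536) :
    pk f n &&& pk (fun i => if b i = true then 65535 else 0) n = pk (fun i => if b i = true then f i else 0) n := by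
  induction n generalizing f b with
  | zero => simp [pk]
  | succ n ih =>
    have h0 := hf 0 (by omega)
    rw [pk_succ, pk_succ, pk_succ, land_add _ _ _ _ h0 (by split <;> norm_num),
      ih (fun i => f (i + 1)) (fun i => b (i + 1)) (fun i hi => hf _ (by omega))]
    congr 1
    split
    · have : f 0 &&& 65535 = f 0 % 2 ^ 16 := Nat.and_two_pow_sub_one_eq_mod _ 16
      rw [this, Nat.mod_eq_of_lt (by simpa using h0)]
    · exact Nat.and_zero _

/-- sign change on codes: `k` is the lane mask, `c` is sixteen in the lanes of the mask -/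
def sgF (k c m : ℕ) : ℕ := Nat.sub (Nat.add m c) (Nat.mul 2 (Nat.land m k))

theorem spread_pk (d : ℕ) (a : ℕ) : a * spread d = pk (fun i => if d.testBit i = true then a else 0) 24 := by
  have h : ((a * spread d : ℕ) : ℤ) = ((pk (fun i => if d.testBit i = true then a else 0) 24 : ℕ) : ℤ) := by
    rw [pk, Nat.cast_mul, spread_cast, Finset.mul_sum]
    push_cast
    apply Finset.sum_congr rfl
    intro i _
    split <;> ring
  exact_mod_cast h

theorem sgF_eq (d : ℕ) {x : GolayPt → ℤ} (hx : Bd x) :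
    sgF (65535 * spread d) (16 * spread d) (encL x) = encL (sgn (ofMask d) x) := by
  have hb : Bd (sgn (ofMask d) x) := by
    intro p
    have := hx p
    simp only [sgn]
    split <;> constructor <;> omega
  have h1 : Nat.land (encL x) (65535 * spread d) = pk (fun i => if d.testBit i = true then (x (pt i) + 8).toNat else 0) 24 := by
    rw [spread_pk, encL]
    exact land_pk _ _ 24 (fun i _ => by have := hx.lane i; omega)
  have h2 : sgF (65535 * spread d) (16 * spread d) (encL x) =
      encL x + 16 * spread d - 2 * Nat.land (encL x) (65535 * spread d) := rfl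
  have h3 : ((2 * Nat.land (encL x) (65535 * spread d) + encL (sgn (ofMask d) x) : ℕ) : ℤ) =
      ((encL x + 16 * spread d : ℕ) : ℤ) := by
    rw [h1, spread_pk]
    push_cast
    rw [encL, encL, pk, pk, pk, pk]
    push_cast
    rw [Finset.mul_sum, ← Finset.sum_add_distrib, ← Finset.sum_add_distrib]
    apply Finset.sum_congr rfl
    intro i hi
    have h4 := hx (pt i)
    have h5 : sgn (ofMask d) x (pt i) = if d.testBit i = true then - x (pt i) else x (pt i) := by
      simp only [sgn, mem_ofMask, ix_pt i (Finset.mem_range.1 hi)]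
    rw [h5]
    have t1 : (((x (pt i) + 8).toNat : ℕ) : ℤ) = x (pt i) + 8 := by omega
    have t2 : (((-x (pt i) + 8).toNat : ℕ) : ℤ) = -x (pt i) + 8 := by omega
    split
    · rw [t1, t2]; ring
    · rw [t1]; ring
  have h4 : 2 * Nat.land (encL x) (65535 * spread d) + encL (sgn (ofMask d) x) = encL x + 16 * spread d := by
    exact_mod_cast h3
  rw [h2]
  omega

/-! ### the engine -/

/-- `f` computes the action of an element fixing all vectors of `V` -/
def Good (V : Set leechLattice) (f : ℕ → ℕ) : Prop :=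
  ∃ g : Co0, (∀ v ∈ V, g • v = v) ∧ ∀ x : leechLattice, Bd (x : GolayPt → ℤ) → Bd ((g • x : leechLattice) : GolayPt → ℤ) →
    f (encL x) = encL ((g • x : leechLattice) : GolayPt → ℤ)

theorem bd32 {x : GolayPt → ℤ} (h : sqNorm x = 32) : Bd x := bd_of_norm (by rw [h]; norm_num)

/-- a matrix fixing the vectors is good -/
theorem good_mat (V : Set leechLattice) (cs : List ℕ) (w : ℕ) (h : isCo0 cs w = true)
    (hV : ∀ v ∈ V, ∃ m, (v : GolayPt → ℤ) = dec m ∧ okc m = true ∧ (actLok cs w m && Nat.beq (actL cs w m) m) = true) :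
    Good V (actL cs w) := by
  obtain ⟨hM, g, hg⟩ := isCo0_spec h
  refine ⟨g, fun v hv => ?_, fun x hx hy => hM.act hx hy (hg x)⟩
  obtain ⟨m, hm1, hm2, hm3⟩ := hV v hv
  rw [Bool.and_eq_true] at hm3
  have hok := okc_spec hm2
  have hbv : Bd (v : GolayPt → ℤ) := by rw [hm1]; exact hok.2
  have henc : encL (v : GolayPt → ℤ) = m := by rw [hm1]; exact hok.1
  have h2 : actL cs w m = m := Nat.eq_of_beq_eq_true hm3.2
  have h3 := hM.of_ok (x := (v : GolayPt → ℤ)) hbv (by rw [henc]; exact hm3.1) (by rw [henc, h2]; exact hm2)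
  rw [henc, h2, ← hm1] at h3
  apply Subtype.ext
  have h4 := hg v
  rw [h3] at h4
  funext p
  have h5 := congrFun h4 p
  simp only [Pi.smul_apply, smul_eq_mul] at h5
  omega

/-- a sign change by a code word vanishing on the supports of the vectors is good -/
theorem good_sgn (V : Set leechLattice) (d : ℕ) (hd : isCode d = true)
    (hV : ∀ v ∈ V, ∀ p ∈ ofMask d, (v : GolayPt → ℤ) p = 0) (k c : ℕ) (hk : k = 65535 * spread d)
    (hc : c = 16 * spread d) : Good V (sgF k c) := by
  have hcw : ofMask d ∈ Cw := (ofMask_mem_supports (codeL_lt (mem_codeL_iff.2 hd))).2 (mem_codeL_iff.2 hd)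
  obtain ⟨g, hg⟩ := exists_sgn hcw
  refine ⟨g, fun v hv => ?_, fun x hx _ => ?_⟩
  · apply Subtype.ext
    rw [hg]
    funext p
    simp only [sgn]
    split
    · rename_i h
      rw [hV v hv p h]; ring
    · rfl
  · have e := sgF_eq d hx
    rw [← hk, ← hc] at e
    rw [hg]
    exact e

/-- the descent engine -/
theorem orbit_descent (V : Set leechLattice) (P : leechLattice → Prop) (n : ℤ) (hn : n ≤ 64)
    (hPn : ∀ x, P x → sqNorm (x : GolayPt → ℤ) = n)
    (hP : ∀ g : Co0, (∀ v ∈ V, g • v = v) → ∀ x : leechLattice, P x → P (g • x)) (m0 : ℕ)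
    (fs : List (ℕ → ℕ)) (hfs : ∀ f ∈ fs, Good V f)
    (check : ∀ x : leechLattice, P x → (Nat.beq (encL x) m0 || fs.any fun f => Nat.blt (f (encL x)) (encL x)) = true)
    (x : leechLattice) (hx : P x) : ∃ g : Co0, (∀ v ∈ V, g • v = v) ∧ encL ((g • x : leechLattice) : GolayPt → ℤ) = m0 := by
  have key : ∀ N : ℕ, ∀ x : leechLattice, P x → encL (x : GolayPt → ℤ) = N →
      ∃ g : Co0, (∀ v ∈ V, g • v = v) ∧ encL ((g • x : leechLattice) : GolayPt → ℤ) = m0 := by
    intro N
    induction N using Nat.strong_induction_on with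
    | _ N ih =>
      intro x hx hN
      have h1 := check x hx
      rw [Bool.or_eq_true, List.any_eq_true] at h1
      rcases h1 with h1 | ⟨f, hf, h1⟩
      · exact ⟨1, fun v _ => one_smul _ v, by rw [one_smul]; exact Nat.eq_of_beq_eq_true h1⟩
      · obtain ⟨g, hg1, hg2⟩ := hfs f hf
        have hPg := hP g hg1 x hx
        have hb1 : Bd (x : GolayPt → ℤ) := bd_of_norm (by rw [hPn x hx]; exact hn)
        have hb2 : Bd ((g • x : leechLattice) : GolayPt → ℤ) := bd_of_norm (by rw [hPn _ hPg]; exact hn)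
        rw [hg2 x hb1 hb2] at h1
        have h2 := H7.M24.blt_lt h1
        rw [hN] at h2
        obtain ⟨k, hk1, hk2⟩ := ih _ h2 (g • x) hPg rfl
        refine ⟨k * g, fun v hv => ?_, ?_⟩
        · rw [mul_smul, hg1 v hv, hk1 v hv]
        · rw [mul_smul]; exact hk2
  exact key _ x hx rfl

/-- transitivity from the descent engine -/
theorem orbit_trans (V : Set leechLattice) (P : leechLattice → Prop) (n : ℤ) (hn : n ≤ 64)
    (hPn : ∀ x, P x → sqNorm (x : GolayPt → ℤ) = n)
    (hP : ∀ g : Co0, (∀ v ∈ V, g • v = v) → ∀ x : leechLattice, P x → P (g • x)) (m0 : ℕ)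
    (fs : List (ℕ → ℕ)) (hfs : ∀ f ∈ fs, Good V f)
    (check : ∀ x : leechLattice, P x → (Nat.beq (encL x) m0 || fs.any fun f => Nat.blt (f (encL x)) (encL x)) = true)
    (x y : leechLattice) (hx : P x) (hy : P y) : ∃ g : Co0, (∀ v ∈ V, g • v = v) ∧ g • x = y := by
  obtain ⟨g, hg1, hg2⟩ := orbit_descent V P n hn hPn hP m0 fs hfs check x hx
  obtain ⟨k, hk1, hk2⟩ := orbit_descent V P n hn hPn hP m0 fs hfs check y hy
  have h1 : g • x = k • y := by
    apply Subtype.ext
    apply (encL_inj _ _).1 (hg2.trans hk2.symm)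
    · exact bd_of_norm (by rw [norm_smul, hPn x hx]; exact hn)
    · exact bd_of_norm (by rw [norm_smul, hPn y hy]; exact hn)
  refine ⟨k⁻¹ * g, fun v hv => ?_, ?_⟩
  · rw [mul_smul, hg1 v hv, inv_smul_eq_iff, hk1 v hv]
  · rw [mul_smul, h1, inv_smul_smul]

end Cfsg.Agent.H7.L9
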