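import Mathlib
import Cfsg.Agent.H7_L9
import Cfsg.Agent.H7_M24d

set_option autoImplicit false

/-!
Every lattice vector of norm 48 or 64 is a sum of two minimal vectors.
-/

namespace Cfsg.Agent.H7.L11

open Cfsg Cfsg.Agent.H7.Golay Cfsg.Agent.H7.Oct Cfsg.Agent.H7.L1 Cfsg.Agent.H7.L2 Cfsg.Agent.H7.L3 Cfsg.Agent.H7.L4
  Cfsg.Agent.H7.M24 Cfsg.Agent.H7.M24b Cfsg.Agent.H7.M24c Cfsg.Agent.H7.M24d Cfsg.Agent.H7.L5 Cfsg.Agent.H7.L6 Cfsg.Agent.H7.L7 Cfsg.Agent.H7.L8 Cfsg.Agent.H7.L9
open scoped Pointwise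

/-- vectors with two coordinates ±4 -/
theorem memA {p q : GolayPt} (hpq : p ≠ q) {a b : ℤ} (ha : a = 4 ∨ a = -4) (hb : b = 4 ∨ b = -4) :
    (Pi.single p a + Pi.single q b : GolayPt → ℤ) ∈ leechLattice ∧
      sqNorm (Pi.single p a + Pi.single q b : GolayPt → ℤ) = 32 := by
  have h := mem_famA.2 ⟨p, q, hpq, a, b, ha, hb, rfl⟩
  exact ⟨mem_leech_iff.2 (Or.inl (famA_spec h).1), (famA_spec h).2.1⟩

/-- vectors with eight coordinates ±2 -/
def vB (o : Finset GolayPt) (f : GolayPt → ℤ) : GolayPt → ℤ := fun p => if p ∈ o then f p else 0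

theorem memB {o : Finset GolayPt} (ho : o ∈ octads) {f : GolayPt → ℤ} (hf : ∀ p ∈ o, f p = 2 ∨ f p = -2)
    (hpar : (o.filter fun p => f p = 2).card % 2 = 0) : vB o f ∈ leechLattice ∧ sqNorm (vB o f) = 32 := by
  have h : vB o f ∈ famB := by
    rw [mem_famB]
    refine ⟨o, ho, fun p hp => if_neg hp, fun p hp => ?_, ?_⟩
    · rw [vB, if_pos hp]; exact hf p hp
    · rw [← hpar]
      congr 2
      apply Finset.filter_congr
      intro p hp
      rw [vB, if_pos hp]
  exact ⟨mem_leech_iff.2 (Or.inl (famB_spec h).1), (famB_spec h).2.1⟩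

theorem dotB (o : Finset GolayPt) (f x : GolayPt → ℤ) : dotInt (vB o f) x = ∑ p ∈ o, f p * x p := by
  rw [dotInt]
  simp only [vB, ite_mul, zero_mul]
  rw [Finset.sum_ite_mem, Finset.univ_inter]

theorem dotInt_add_left' (x y z : GolayPt → ℤ) : dotInt (x + y) z = dotInt x z + dotInt y z := by
  simp only [dotInt, Pi.add_apply, add_mul, Finset.sum_add_distrib]

theorem sgn4 (a : ℤ) : ∃ s : ℤ, (s = 4 ∨ s = -4) ∧ s * a = 4 * |a| := by
  rcases le_or_gt 0 a with h | h
  · exact ⟨4, Or.inl rfl, by rw [abs_of_nonneg h]⟩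
  · exact ⟨-4, Or.inr rfl, by rw [abs_of_neg h]; ring⟩

/-- the upper bound for inner products with minimal vectors -/
theorem dot_le {x v : GolayPt → ℤ} (hx : x ∈ leechLattice) (hv : v ∈ leechLattice) (hvn : sqNorm v = 32)
    (hxn : 32 < sqNorm x) : 2 * dotInt x v ≤ sqNorm x := by
  have h1 : x - v ≠ 0 := by
    intro h
    rw [sub_eq_zero] at h
    rw [h] at hxn
    omega
  have h2 := min_norm (sub_mem hx hv) h1
  rw [sqNorm_sub] at h2
  omega

/-- two large coordinates -/
theorem pair_case {x : GolayPt → ℤ} (hx : x ∈ leechLattice) (hn : 32 < sqNorm x) {p q : GolayPt} (hpq : p ≠ q)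
    (h : sqNorm x ≤ 8 * (|x p| + |x q|)) : ∃ v ∈ leechLattice, sqNorm v = 32 ∧ 2 * dotInt x v = sqNorm x := by
  obtain ⟨s, hs, hs'⟩ := sgn4 (x p)
  obtain ⟨t, ht, ht'⟩ := sgn4 (x q)
  obtain ⟨h1, h2⟩ := memA hpq hs ht
  refine ⟨_, h1, h2, le_antisymm (dot_le hx h1 h2 hn) ?_⟩
  have h3 : dotInt x (Pi.single p s + Pi.single q t : GolayPt → ℤ) = x p * s + x q * t := by
    rw [dotInt_comm, dotInt_add_left', dotInt_comm, dotInt_single, dotInt_comm, dotInt_single]
  rw [h3]
  nlinarith

theorem sum_sq_split {x : GolayPt → ℤ} (p : GolayPt) : sqNorm x = x p ^ 2 + ∑ q ∈ Finset.univ.erase p, x q ^ 2 := by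
  rw [sqNorm, ← Finset.add_sum_erase _ _ (Finset.mem_univ p)]

theorem sq_le_of_abs {a b : ℤ} (h : |a| ≤ b) : a ^ 2 ≤ b ^ 2 := by
  rw [← sq_abs]
  have := abs_nonneg a
  nlinarith

theorem card_univ24 : (Finset.univ : Finset GolayPt).card = 24 := rfl

/-- odd vectors without two large coordinates -/
theorem odd_small {x : GolayPt → ℤ} (hx : OddT x) (n : ℤ) (hn : sqNorm x = n) (hsm : ∀ p q, p ≠ q → |x p| + |x q| < 8)
    (hbig : 48 < n) : ∀ p, x p = 1 ∨ x p = -1 ∨ x p = 3 ∨ x p = -3 := by
  have h1 : ∀ p, 1 ≤ |x p| := by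
    intro p
    have := hx.1 p
    have h0 : x p ≠ 0 := by omega
    exact Int.one_le_abs h0
  have h3 : ∀ p, |x p| ≤ 3 := by
    intro p
    by_contra hp
    push Not at hp
    -- then `|x p| ≥ 5` and all others are one
    have h5 : 5 ≤ |x p| := by
      have := hx.1 p
      rcases abs_cases (x p) with ⟨h, _⟩ | ⟨h, _⟩ <;> omega
    have h6 : ∀ q, q ≠ p → |x q| ≤ 1 := by
      intro q hq
      have h7 := hsm p q (Ne.symm hq)
      have := hx.1 q
      have h8 := h1 q
      rcases abs_cases (x q) with ⟨h, _⟩ | ⟨h, _⟩ <;> omega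
    have h9 : |x p| ≤ 5 := by
      obtain ⟨q, hq⟩ : ∃ q, q ≠ p := exists_ne p
      have h7 := hsm p q (Ne.symm hq)
      have h8 := h1 q
      have := hx.1 p
      rcases abs_cases (x p) with ⟨h, _⟩ | ⟨h, _⟩ <;> omega
    have h10 : ∑ q ∈ Finset.univ.erase p, x q ^ 2 ≤ ∑ q ∈ Finset.univ.erase p, (1 : ℤ) := by
      apply Finset.sum_le_sum
      intro q hq
      have := sq_le_of_abs (h6 q (Finset.ne_of_mem_erase hq))
      simpa using this
    have h11 := sum_sq_split (x := x) p
    have h12 := sq_le_of_abs h9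
    have h13 : ∑ q ∈ (Finset.univ : Finset GolayPt).erase p, (1 : ℤ) = 23 := by
      rw [Finset.sum_const, Finset.card_erase_of_mem (Finset.mem_univ p), card_univ24]; rfl
    rw [h13] at h10
    omega
  intro p
  have h4 := h3 p
  rw [abs_le] at h4
  have := hx.1 p
  omega

/-- even vectors without two large coordinates -/
theorem even_small {x : GolayPt → ℤ} (hx : EvenT x) (n : ℤ) (hn : sqNorm x = n) (k : ℤ) (hk : k = 6 ∨ k = 8)
    (hsm : ∀ p q, p ≠ q → |x p| + |x q| < k) (hn' : n = 48 ∧ k = 6 ∨ n = 64 ∧ k = 8) :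
    ∀ p, |x p| < k - 2 := by
  intro p
  by_contra hp
  push Not at hp
  have h0 : ∀ q, q ≠ p → x q = 0 := by
    intro q hq
    have h1 := hsm p q (Ne.symm hq)
    have := hx.1 q
    have h2 : |x q| < 2 := by omega
    rw [abs_lt] at h2
    omega
  rw [eq_single_of h0, sqNorm_single] at hn
  obtain ⟨q, hq⟩ : ∃ q, q ≠ p := exists_ne p
  have h1 := hsm p q (Ne.symm hq)
  rw [h0 q hq, abs_zero, add_zero, abs_lt] at h1
  have := hx.1 p
  rcases hn' with ⟨rfl, rfl⟩ | ⟨rfl, rfl⟩
  · have h2 : x p ≤ 5 := by omega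
    have h3 : -5 ≤ x p := by omega
    nlinarith
  · have h2 : x p ≤ 7 := by omega
    have h3 : -7 ≤ x p := by omega
    nlinarith

/-- an octad with all signs matched, or with one sign flipped -/
theorem oct_case {x : GolayPt → ℤ} {o : Finset GolayPt} (ho : o ∈ octads) {q : GolayPt} (hq : q ∈ o) :
    ((o.filter fun p => 0 ≤ x p).card % 2 = 0 → ∃ v ∈ leechLattice, sqNorm v = 32 ∧ dotInt x v = 2 * ∑ p ∈ o, |x p|) ∧
    ((o.filter fun p => 0 ≤ x p).card % 2 = 1 →
      ∃ v ∈ leechLattice, sqNorm v = 32 ∧ dotInt x v = 2 * (∑ p ∈ o, |x p|) - 4 * |x q|) := by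
  constructor
  · intro hpar
    have h1 : ∀ p ∈ o, (fun p => if 0 ≤ x p then (2 : ℤ) else -2) p = 2 ∨ (fun p => if 0 ≤ x p then (2 : ℤ) else -2) p = -2 := by
      intro p _
      by_cases h : 0 ≤ x p
      · left; exact if_pos h
      · right; exact if_neg h
    have h2 : (o.filter fun p => (fun p => if 0 ≤ x p then (2 : ℤ) else -2) p = 2) = o.filter fun p => 0 ≤ x p := by
      apply Finset.filter_congr
      intro p _
      by_cases h : 0 ≤ x p
      · simp [h]
      · simp [h]
    obtain ⟨h3, h4⟩ := memB ho h1 (by rw [h2]; exact hpar)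
    refine ⟨_, h3, h4, ?_⟩
    rw [dotInt_comm, dotB, Finset.mul_sum]
    apply Finset.sum_congr rfl
    intro p _
    by_cases h : 0 ≤ x p
    · simp only [if_pos h]; rw [abs_of_nonneg h]
    · simp only [if_neg h]; rw [abs_of_neg (not_le.1 h)]; ring
  · intro hpar
    have h1 : ∀ p ∈ o, (fun p => if p = q then (if 0 ≤ x p then (-2 : ℤ) else 2) else if 0 ≤ x p then (2 : ℤ) else -2) p = 2 ∨
        (fun p => if p = q then (if 0 ≤ x p then (-2 : ℤ) else 2) else if 0 ≤ x p then (2 : ℤ) else -2) p = -2 := by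
      intro p _
      by_cases h : 0 ≤ x p
      · by_cases h' : p = q
        · right; simp only [if_pos h, if_pos h']
        · left; simp only [if_pos h, if_neg h']
      · by_cases h' : p = q
        · left; simp only [if_neg h, if_pos h']
        · right; simp only [if_neg h, if_neg h']
    have h2 : (o.filter fun p => (fun p => if p = q then (if 0 ≤ x p then (-2 : ℤ) else 2) else if 0 ≤ x p then (2 : ℤ) else -2) p = 2) =
        symmDiff (o.filter fun p => 0 ≤ x p) {q} := by
      ext p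
      rw [Finset.mem_symmDiff, Finset.mem_filter, Finset.mem_filter, Finset.mem_singleton]
      by_cases h' : p = q
      · subst h'
        by_cases h : 0 ≤ x p
        · simp [h, hq]
        · simp [h, hq]
      · by_cases h : 0 ≤ x p
        · simp [h, h']
        · simp [h, h']
    have h2' : (symmDiff (o.filter fun p => 0 ≤ x p) {q}).card % 2 = 0 := by
      have h5 := card_symmDiff' (o.filter fun p => 0 ≤ x p) {q}
      rw [Finset.card_singleton] at h5
      omega
    obtain ⟨h3, h4⟩ := memB ho h1 (by rw [h2]; exact h2')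
    refine ⟨_, h3, h4, ?_⟩
    rw [dotInt_comm, dotB, ← Finset.add_sum_erase _ _ hq, ← Finset.add_sum_erase o (fun p => |x p|) hq]
    have h5 : ∀ p ∈ o.erase q, (if p = q then (if 0 ≤ x p then (-2 : ℤ) else 2) else if 0 ≤ x p then (2 : ℤ) else -2) * x p =
        2 * |x p| := by
      intro p hp
      rw [if_neg (Finset.ne_of_mem_erase hp)]
      by_cases h : 0 ≤ x p
      · rw [if_pos h, abs_of_nonneg h]
      · rw [if_neg h, abs_of_neg (not_le.1 h)]; ring
    rw [Finset.sum_congr rfl h5, ← Finset.mul_sum]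
    simp only [if_true]
    by_cases h : 0 ≤ x q
    · rw [if_pos h, abs_of_nonneg h]; ring
    · rw [if_neg h, abs_of_neg (not_le.1 h)]; ring

theorem oct_case0 {x : GolayPt → ℤ} {o : Finset GolayPt} (ho : o ∈ octads) {q : GolayPt} (hq : q ∈ o) (h0 : x q = 0) :
    ∃ v ∈ leechLattice, sqNorm v = 32 ∧ dotInt x v = 2 * ∑ p ∈ o, |x p| := by
  obtain ⟨h1, h2⟩ := oct_case (x := x) ho hq
  rcases Nat.mod_two_eq_zero_or_one (o.filter fun p => 0 ≤ x p).card with h | h
  · exact h1 h
  · rw [h0, abs_zero, mul_zero, sub_zero] at h2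
    exact h2 h

/-- computational facts about octads -/
noncomputable def dodOK (i m : ℕ) : Bool :=
  Nat.beq (Nat.land m (Nat.shiftLeft 1 i)) (Nat.shiftLeft 1 i) || octL.any fun o =>
    Nat.beq (Nat.land o (Nat.shiftLeft 1 i)) (Nat.shiftLeft 1 i) && Nat.beq (pc (Nat.land o m)) 6

theorem dod_all : ((List.range 24).all fun i => dodOK i 28637) = true := by decide +kernel

theorem testBit_of_land {m i : ℕ} (h : Nat.beq (Nat.land m (Nat.shiftLeft 1 i)) (Nat.shiftLeft 1 i) = true) :
    m.testBit i = true := by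
  have h1 := Nat.eq_of_beq_eq_true h
  have h2 : (m &&& (1 <<< i)).testBit i = (1 <<< i).testBit i := congrArg (fun t => Nat.testBit t i) h1
  rw [Nat.testBit_and, Nat.testBit_shiftLeft] at h2
  simpa using h2

/-- through every point outside a dodecad there is an octad meeting it in six points -/
theorem dod_oct {d : Finset GolayPt} (hd : d ∈ dodecads) {p : GolayPt} (hp : p ∉ d) :
    ∃ o ∈ octads, p ∈ o ∧ (o ∩ d).card = 6 := by
  obtain ⟨g, hg, hgd⟩ := dodecad_std hd
  have h1 : g p ∉ ofMask 28637 := by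
    intro h
    rw [← hgd, Finset.mem_smul_finset] at h
    obtain ⟨q, hq, h2⟩ := h
    exact hp (g.injective h2 ▸ hq)
  have h2 := List.all_eq_true.1 dod_all (ix (g p)) (List.mem_range.2 (ix_lt _))
  rw [dodOK, Bool.or_eq_true] at h2
  rcases h2 with h2 | h2
  · exact absurd (mem_ofMask.2 (testBit_of_land h2)) h1
  · rw [List.any_eq_true] at h2
    obtain ⟨m, hm, h3⟩ := h2
    rw [Bool.and_eq_true] at h3
    have h4 : ofMask m ∈ octads := (ofMask_mem_octads (octL_lt hm)).2 hm
    refine ⟨g⁻¹ • ofMask m, (smul_mem_octads_iff (inv_mem hg)).2 h4, ?_, ?_⟩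
    · rw [Finset.mem_inv_smul_finset_iff]
      exact mem_ofMask.2 (testBit_of_land h3.1)
    · have h5 : d = g⁻¹ • ofMask 28637 := by rw [← hgd, inv_smul_smul]
      rw [h5, card_smul_inter]
      have h6 : ofMask m ∩ ofMask 28637 = ofMask (m &&& 28637) := by
        ext q
        rw [Finset.mem_inter, mem_ofMask, mem_ofMask, mem_ofMask, Nat.testBit_and, Bool.and_eq_true]
      rw [h6, card_ofMask]
      exact Nat.eq_of_beq_eq_true h3.2

/-- two octads disjoint from a given one and meeting in four points -/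
theorem oct_pair {o : Finset GolayPt} (ho : o ∈ octads) :
    ∃ a ∈ octads, ∃ b ∈ octads, Disjoint a o ∧ Disjoint b o ∧ (a ∩ b).card = 4 := by
  obtain ⟨g, hg, hgo⟩ := octad_trans oct0_mem ho
  have ha : ofMask 14919680 ∈ octads := (ofMask_mem_octads (by norm_num)).2 (by
    rw [mem_octL, mem_codeL_iff]; decide +kernel)
  have hb : ofMask 8077824 ∈ octads := (ofMask_mem_octads (by norm_num)).2 (by
    rw [mem_octL, mem_codeL_iff]; decide +kernel)
  refine ⟨g • ofMask 14919680, (smul_mem_octads_iff hg).2 ha, g • ofMask 8077824, (smul_mem_octads_iff hg).2 hb, ?_, ?_, ?_⟩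
  · rw [← hgo, Finset.disjoint_iff_inter_eq_empty, ← Finset.card_eq_zero, card_smul_inter]
    decide +kernel
  · rw [← hgo, Finset.disjoint_iff_inter_eq_empty, ← Finset.card_eq_zero, card_smul_inter]
    decide +kernel
  · rw [card_smul_inter]
    decide +kernel

theorem sum_abs_on {x : GolayPt → ℤ} {d o : Finset GolayPt} {a b : ℤ} (h1 : ∀ p ∈ o, p ∈ d → |x p| = a)
    (h2 : ∀ p ∈ o, p ∉ d → |x p| = b) : ∑ p ∈ o, |x p| = a * (o ∩ d).card + b * (o.card - (o ∩ d).card : ℤ) := by
  have h3 : ∑ p ∈ o, |x p| = ∑ p ∈ o, if p ∈ d then a else b := by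
    apply Finset.sum_congr rfl
    intro p hp
    by_cases h : p ∈ d
    · rw [if_pos h, h1 p hp h]
    · rw [if_neg h, h2 p hp h]
  rw [h3, Finset.sum_ite, Finset.sum_const, Finset.sum_const, Finset.filter_mem_eq_inter]
  have h4 : (o.filter fun p => p ∉ d).card + (o ∩ d).card = o.card := by
    rw [← Finset.filter_mem_eq_inter, add_comm, Finset.card_filter_add_card_filter_not]
  have h5 : ((o.filter fun p => p ∉ d).card : ℤ) = o.card - (o ∩ d).card := by
    rw [← h4]; push_cast; ring
  rw [nsmul_eq_mul, nsmul_eq_mul, h5]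
  ring

theorem norm_on {x : GolayPt → ℤ} {d : Finset GolayPt} {a b : ℤ} (h1 : ∀ p, p ∈ d → x p ^ 2 = a)
    (h2 : ∀ p, p ∉ d → x p ^ 2 = b) : sqNorm x = a * d.card + b * (24 - d.card : ℤ) := by
  have h3 : sqNorm x = ∑ p, if p ∈ d then a else b := by
    apply Finset.sum_congr rfl
    intro p _
    by_cases h : p ∈ d
    · rw [if_pos h, h1 p h]
    · rw [if_neg h, h2 p h]
  rw [h3, Finset.sum_ite, Finset.sum_const, Finset.sum_const, Finset.filter_mem_eq_inter, Finset.univ_inter]
  have h4 : ((Finset.univ : Finset GolayPt).filter fun p => p ∉ d).card + d.card = 24 := by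
    have := Finset.card_filter_add_card_filter_not (s := (Finset.univ : Finset GolayPt)) (fun p => p ∈ d)
    rw [Finset.filter_mem_eq_inter, Finset.univ_inter, card_univ24] at this
    rw [add_comm]; exact this
  have h5 : (((Finset.univ : Finset GolayPt).filter fun p => p ∉ d).card : ℤ) = 24 - d.card := by
    omega
  rw [nsmul_eq_mul, nsmul_eq_mul, h5]
  ring

theorem exists_notMem_of_card {d : Finset GolayPt} (h : d.card < 24) : ∃ p, p ∉ d := by
  by_contra h'
  push Not at h'
  rw [Finset.eq_univ_iff_forall.2 h', card_univ24] at h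
  omega

/-- every vector of norm 48 has a minimal neighbour -/
theorem D48 {x : GolayPt → ℤ} (hx : x ∈ leechLattice) (hn : sqNorm x = 48) :
    ∃ v ∈ leechLattice, sqNorm v = 32 ∧ dotInt x v = 24 := by
  by_cases hc : ∃ p q, p ≠ q ∧ sqNorm x ≤ 8 * (|x p| + |x q|)
  · obtain ⟨p, q, hpq, h⟩ := hc
    obtain ⟨v, h1, h2, h3⟩ := pair_case hx (by omega) hpq h
    exact ⟨v, h1, h2, by omega⟩
  push Not at hc
  have hsm : ∀ p q, p ≠ q → |x p| + |x q| < 6 := by
    intro p q hpq
    have := hc p q hpq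
    omega
  rcases mem_leech_iff.1 hx with he | ho
  · have h1 := even_small he 48 hn 6 (Or.inl rfl) hsm (Or.inl ⟨rfl, rfl⟩)
    have h2 : ∀ p, p ∈ cls x 2 → |x p| = 2 := by
      intro p hp
      rw [mem_cls] at hp
      have h3 := h1 p
      rw [abs_lt] at h3
      have h4 : x p = 2 ∨ x p = -2 := by omega
      rcases h4 with h4 | h4 <;> rw [h4] <;> rfl
    have h3 : ∀ p, p ∉ cls x 2 → |x p| = 0 := by
      intro p hp
      rw [mem_cls] at hp
      have h3 := h1 p
      have h5 := he.1 p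
      rw [abs_lt] at h3
      have h4 : x p = 0 := by omega
      rw [h4]; rfl
    have h4 : sqNorm x = 4 * (cls x 2).card + 0 * (24 - (cls x 2).card : ℤ) :=
      norm_on (fun p hp => by rw [← sq_abs, h2 p hp]; rfl) (fun p hp => by rw [← sq_abs, h3 p hp]; rfl)
    have h5 : (cls x 2).card = 12 := by omega
    obtain ⟨p, hp⟩ := exists_notMem_of_card (d := cls x 2) (by omega)
    obtain ⟨o, ho, hpo, h6⟩ := dod_oct ⟨he.2.2, h5⟩ hp
    obtain ⟨v, h7, h8, h9⟩ := oct_case0 ho hpo (abs_eq_zero.1 (h3 p hp))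
    refine ⟨v, h7, h8, ?_⟩
    rw [h9, sum_abs_on (d := cls x 2) (fun p _ hp => h2 p hp) (fun p _ hp => h3 p hp), h6]
    norm_num
  · exfalso
    have h1 : ∀ p, 1 ≤ |x p| ∧ |x p| % 2 = 1 := by
      intro p
      have := ho.1 p
      rcases abs_cases (x p) with ⟨h, _⟩ | ⟨h, _⟩ <;> omega
    obtain ⟨p, hp⟩ : ∃ p, ∀ q, q ≠ p → |x q| ≤ 1 := by
      by_cases h : ∃ p, 3 ≤ |x p|
      · obtain ⟨p, hp⟩ := h
        refine ⟨p, fun q hq => ?_⟩
        have h2 := hsm p q (Ne.symm hq)
        have h3 := h1 q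
        omega
      · push Not at h
        refine ⟨none, fun q _ => ?_⟩
        have h2 := h q
        have h3 := h1 q
        omega
    obtain ⟨q, hq⟩ : ∃ q, q ≠ p := exists_ne p
    have h2 := hsm p q (Ne.symm hq)
    have h3 := h1 q
    have h4 := h1 p
    have h5 : |x p| ≤ 3 := by omega
    have h6 := sq_le_of_abs h5
    have h10 : ∑ q ∈ Finset.univ.erase p, x q ^ 2 ≤ ∑ q ∈ Finset.univ.erase p, (1 : ℤ) := by
      apply Finset.sum_le_sum
      intro q hq
      have := sq_le_of_abs (hp q (Finset.ne_of_mem_erase hq))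
      simpa using this
    have h13 : ∑ q ∈ (Finset.univ : Finset GolayPt).erase p, (1 : ℤ) = 23 := by
      rw [Finset.sum_const, Finset.card_erase_of_mem (Finset.mem_univ p), card_univ24]; rfl
    rw [h13] at h10
    have h11 := sum_sq_split (x := x) p
    omega

/-- every vector of norm 64 has a minimal neighbour -/
theorem D64 {x : GolayPt → ℤ} (hx : x ∈ leechLattice) (hn : sqNorm x = 64) :
    ∃ v ∈ leechLattice, sqNorm v = 32 ∧ dotInt x v = 32 := by
  by_cases hc : ∃ p q, p ≠ q ∧ sqNorm x ≤ 8 * (|x p| + |x q|)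
  · obtain ⟨p, q, hpq, h⟩ := hc
    obtain ⟨v, h1, h2, h3⟩ := pair_case hx (by omega) hpq h
    exact ⟨v, h1, h2, by omega⟩
  push Not at hc
  have hsm : ∀ p q, p ≠ q → |x p| + |x q| < 8 := by
    intro p q hpq
    have := hc p q hpq
    omega
  rcases mem_leech_iff.1 hx with he | ho
  · have h1 := even_small he 64 hn 8 (Or.inr rfl) hsm (Or.inr ⟨rfl, rfl⟩)
    have h2 : ∀ p, p ∈ cls x 2 → |x p| = 2 := by
      intro p hp
      rw [mem_cls] at hp
      have h3 := h1 p
      rw [abs_lt] at h3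
      have h4 : x p = 2 ∨ x p = -2 := by omega
      rcases h4 with h4 | h4 <;> rw [h4] <;> rfl
    have h3 : ∀ p, p ∉ cls x 2 → |x p| = 0 ∨ |x p| = 4 := by
      intro p hp
      rw [mem_cls] at hp
      have h3 := h1 p
      have h5 := he.1 p
      rw [abs_lt] at h3
      have h4 : x p = 0 ∨ x p = 4 ∨ x p = -4 := by omega
      rcases h4 with h4 | h4 | h4 <;> rw [h4]
      · left; rfl
      · right; rfl
      · right; rfl
    by_cases h4 : ∃ p, |x p| = 4
    · obtain ⟨p, hp⟩ := h4
      have hpc : p ∉ cls x 2 := fun h => by rw [h2 p h] at hp; omega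
      have h5 : ∀ q, q ∉ cls x 2 → q ≠ p → |x q| = 0 := by
        intro q hq hqp
        rcases h3 q hq with h | h
        · exact h
        · have := hsm p q (Ne.symm hqp)
          omega
      have h6 : (cls x 2).card = 12 := by
        have h7 : sqNorm (fun q => if q = p then 0 else x q) = 4 * (cls x 2).card + 0 * (24 - (cls x 2).card : ℤ) := by
          apply norm_on
          · intro q hq
            have hqp : q ≠ p := fun h => hpc (h ▸ hq)
            simp only [if_neg hqp]
            rw [← sq_abs, h2 q hq]; rfl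
          · intro q hq
            by_cases hqp : q = p
            · simp only [if_pos hqp]; rfl
            · simp only [if_neg hqp]
              rw [← sq_abs, h5 q hq hqp]; rfl
        have h8 : sqNorm (fun q => if q = p then 0 else x q) = ∑ q ∈ Finset.univ.erase p, x q ^ 2 := by
          rw [sum_sq_split p, if_pos rfl]
          rw [zero_pow (by norm_num), zero_add]
          apply Finset.sum_congr rfl
          intro q hq
          simp only [if_neg (Finset.ne_of_mem_erase hq)]
        have h9 := sum_sq_split (x := x) p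
        rw [← sq_abs, hp, hn, ← h8, h7] at h9
        omega
      obtain ⟨o, ho, hpo, h7⟩ := dod_oct ⟨he.2.2, h6⟩ hpc
      obtain ⟨q, hqo, hqc, hqp⟩ : ∃ q ∈ o, q ∉ cls x 2 ∧ q ≠ p := by
        by_contra hcon
        push Not at hcon
        have h8 : o ⊆ insert p (o ∩ cls x 2) := by
          intro q hq
          rw [Finset.mem_insert, Finset.mem_inter]
          by_cases h : q ∈ cls x 2
          · exact Or.inr ⟨hq, h⟩
          · exact Or.inl (hcon q hq h)
        have h9 := (Finset.card_le_card h8).trans (Finset.card_insert_le _ _)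
        have h10 := ho.2
        omega
      obtain ⟨v, h8, h9, h10⟩ := oct_case0 ho hqo (abs_eq_zero.1 (h5 q hqc hqp))
      refine ⟨v, h8, h9, ?_⟩
      rw [h10, ← Finset.add_sum_erase _ _ hpo, hp, sum_abs_on (d := cls x 2) (a := 2) (b := 0) (fun p _ hp => h2 p hp)
        (fun q hq hq' => h5 q hq' (Finset.ne_of_mem_erase hq))]
      have h11 : (o.erase p ∩ cls x 2) = o ∩ cls x 2 := by
        ext q
        rw [Finset.mem_inter, Finset.mem_inter, Finset.mem_erase]
        constructor
        · rintro ⟨⟨_, h⟩, h'⟩; exact ⟨h, h'⟩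
        · rintro ⟨h, h'⟩; exact ⟨⟨fun e => hpc (e ▸ h'), h⟩, h'⟩
      rw [h11, h7]
      norm_num
    · push Not at h4
      have h5 : ∀ p, p ∉ cls x 2 → |x p| = 0 := fun p hp => (h3 p hp).resolve_right (h4 p)
      have h6 : sqNorm x = 4 * (cls x 2).card + 0 * (24 - (cls x 2).card : ℤ) :=
        norm_on (fun p hp => by rw [← sq_abs, h2 p hp]; rfl) (fun p hp => by rw [← sq_abs, h5 p hp]; rfl)
      have h7 : (cls x 2).card = 16 := by omega
      have h8 : (cls x 2)ᶜ ∈ octads := ⟨compl_mem_supports he.2.2, by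
        rw [Finset.card_compl, h7]; rfl⟩
      have key : ∀ o ∈ octads, Disjoint o (cls x 2)ᶜ → (o.filter fun p => 0 ≤ x p).card % 2 = 0 →
          ∃ v ∈ leechLattice, sqNorm v = 32 ∧ dotInt x v = 32 := by
        intro o ho hdis hpar
        obtain ⟨q, hq⟩ : o.Nonempty := by rw [← Finset.card_pos, ho.2]; norm_num
        obtain ⟨v, h9, h10, h11⟩ := (oct_case (x := x) ho hq).1 hpar
        refine ⟨v, h9, h10, ?_⟩
        have h12 : ∀ p ∈ o, p ∈ cls x 2 := by
          intro p hp
          by_contra h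
          exact (Finset.disjoint_left.1 hdis) hp (Finset.mem_compl.2 h)
        have h13 : o ∩ cls x 2 = o := Finset.inter_eq_left.2 h12
        rw [h11, sum_abs_on (d := cls x 2) (a := 2) (b := 0) (fun p _ hp => h2 p hp) (fun p _ hp => h5 p hp), h13, ho.2]
        norm_num
      obtain ⟨a, ha, b, hb, had, hbd, hab⟩ := oct_pair h8
      by_cases hpa : (a.filter fun p => 0 ≤ x p).card % 2 = 0
      · exact key a ha had hpa
      by_cases hpb : (b.filter fun p => 0 ≤ x p).card % 2 = 0
      · exact key b hb hbd hpb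
      have hab' : symmDiff a b ∈ octads := by
        refine ⟨symmDiff_mem_supports ha.1 hb.1, ?_⟩
        have := card_symmDiff' a b
        rw [ha.2, hb.2, hab] at this
        omega
      refine key _ hab' ?_ ?_
      · rw [Finset.disjoint_left] at *
        intro p hp
        rw [Finset.mem_symmDiff] at hp
        rcases hp with ⟨h, _⟩ | ⟨h, _⟩
        · exact had h
        · exact hbd h
      · have h9 : ((symmDiff a b).filter fun p => 0 ≤ x p) = symmDiff (a.filter fun p => 0 ≤ x p) (b.filter fun p => 0 ≤ x p) := by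
          ext p
          simp only [Finset.mem_filter, Finset.mem_symmDiff]
          tauto
        have h10 := card_symmDiff' (a.filter fun p => 0 ≤ x p) (b.filter fun p => 0 ≤ x p)
        rw [h9]
        omega
  · have h1 := odd_small ho 64 hn hsm (by norm_num)
    have habs : ∀ p, |x p| = 1 ∨ |x p| = 3 := by
      intro p
      rcases h1 p with h | h | h | h <;> rw [h]
      · left; rfl
      · left; rfl
      · right; rfl
      · right; rfl
    have h2 : ∀ p, p ∈ (Finset.univ.filter fun p => |x p| = 3) → |x p| = 3 := fun p hp => (Finset.mem_filter.1 hp).2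
    have h3 : ∀ p, p ∉ (Finset.univ.filter fun p => |x p| = 3) → |x p| = 1 := by
      intro p hp
      rw [Finset.mem_filter] at hp
      rcases habs p with h | h
      · exact h
      · exact absurd ⟨Finset.mem_univ p, h⟩ hp
    obtain ⟨F, hF⟩ : ∃ F, F = Finset.univ.filter fun p => |x p| = 3 := ⟨_, rfl⟩
    rw [← hF] at h2 h3
    have h4 : sqNorm x = 9 * F.card + 1 * (24 - F.card : ℤ) :=
      norm_on (fun p hp => by rw [← sq_abs, h2 p hp]; rfl) (fun p hp => by rw [← sq_abs, h3 p hp]; rfl)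
    have h5 : F.card = 5 := by omega
    obtain ⟨o, ⟨ho', hFo⟩, _⟩ := steiner.2 F h5
    obtain ⟨q, hq, hqF⟩ : ∃ q ∈ o, q ∉ F := by
      by_contra hcon
      push Not at hcon
      have h6 := Finset.card_le_card (show o ⊆ F from hcon)
      have h7 := ho'.2
      omega
    have h6 : ∑ p ∈ o, |x p| = 18 := by
      rw [sum_abs_on (d := F) (a := 3) (b := 1) (fun p _ hp => h2 p hp) (fun p _ hp => h3 p hp),
        Finset.inter_eq_right.2 hFo, h5, ho'.2]
      norm_num
    obtain ⟨h7, h8⟩ := oct_case (x := x) ho' hq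
    rw [h6] at h7 h8
    rw [h3 q hqF] at h8
    rcases Nat.mod_two_eq_zero_or_one (o.filter fun p => 0 ≤ x p).card with h | h
    · obtain ⟨v, hv, hvn, hvd⟩ := h7 h
      have := dot_emod hx hv
      omega
    · obtain ⟨v, hv, hvn, hvd⟩ := h8 h
      exact ⟨v, hv, hvn, by omega⟩

end Cfsg.Agent.H7.L11
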