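import Mathlib
import Cfsg.Agent.H7_L11
import Cfsg.Agent.H7_LV
import Cfsg.Agent.H7_T1
import Cfsg.Agent.H7_T4a
import Cfsg.Agent.H7_T4b
import Cfsg.Agent.H7_T4c
import Cfsg.Agent.H7_T5a
import Cfsg.Agent.H7_T5b

set_option autoImplicit false

/-!
`Co0` acting on short vectors: transport lemmas, transitivity on pairs, norm 48 and norm 64 vectors.
-/

namespace Cfsg.Agent.H7.Co

open Cfsg Cfsg.Agent.H7.Golay Cfsg.Agent.H7.Oct Cfsg.Agent.H7.L1 Cfsg.Agent.H7.L2 Cfsg.Agent.H7.L4 Cfsg.Agent.H7.L5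
  Cfsg.Agent.H7.L6 Cfsg.Agent.H7.L7 Cfsg.Agent.H7.L8 Cfsg.Agent.H7.L9 Cfsg.Agent.H7.L10 Cfsg.Agent.H7.L11 Cfsg.Agent.H7.LV

/-- norm -/
abbrev Nm (x : leechLattice) : ℤ := sqNorm (x : GolayPt → ℤ)

/-- inner product -/
abbrev Dt (x y : leechLattice) : ℤ := dotInt (x : GolayPt → ℤ) (y : GolayPt → ℤ)

theorem nm_smul (g : Co0) (x : leechLattice) : Nm (g • x) = Nm x := norm_smul g x

theorem dt_smul (g : Co0) (x y : leechLattice) : Dt (g • x) (g • y) = Dt x y := dot_smul g x y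

theorem dt_comm (x y : leechLattice) : Dt x y = Dt y x := dotInt_comm _ _

theorem dt_self (x : leechLattice) : Dt x x = Nm x := dotInt_self _

theorem dt_add (x y z : leechLattice) : Dt (x + y) z = Dt x z + Dt y z := dotInt_add_left' _ _ _

theorem dt_neg (x z : leechLattice) : Dt (-x) z = -Dt x z := by
  show dotInt (-(x : GolayPt → ℤ)) z = _
  simp only [Dt, dotInt, Pi.neg_apply, neg_mul, Finset.sum_neg_distrib]

theorem dt_sub (x y z : leechLattice) : Dt (x - y) z = Dt x z - Dt y z := by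
  rw [sub_eq_add_neg, dt_add, dt_neg]; ring

theorem dt_add' (x y z : leechLattice) : Dt z (x + y) = Dt z x + Dt z y := by
  rw [dt_comm, dt_add, dt_comm x, dt_comm y]

theorem dt_neg' (x z : leechLattice) : Dt z (-x) = -Dt z x := by rw [dt_comm, dt_neg, dt_comm]

theorem dt_sub' (x y z : leechLattice) : Dt z (x - y) = Dt z x - Dt z y := by
  rw [dt_comm, dt_sub, dt_comm x, dt_comm y]

theorem nm_add (x y : leechLattice) : Nm (x + y) = Nm x + 2 * Dt x y + Nm y := sqNorm_add _ _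

theorem nm_sub (x y : leechLattice) : Nm (x - y) = Nm x - 2 * Dt x y + Nm y := sqNorm_sub _ _

theorem nm_neg (x : leechLattice) : Nm (-x) = Nm x := sqNorm_neg _

theorem nm_nonneg (x : leechLattice) : 0 ≤ Nm x := sqNorm_nonneg _

theorem nm_zero_iff {x : leechLattice} : Nm x = 0 ↔ x = 0 := by
  rw [Nm, sqNorm_eq_zero]
  exact ⟨fun h => Subtype.ext h, fun h => by rw [h]; rfl⟩

theorem nm_min {x : leechLattice} (h : x ≠ 0) : 32 ≤ Nm x := min_norm x.2 fun e => h (Subtype.ext e)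

theorem smul_add'' (g : Co0) (x y : leechLattice) : g • (x + y) = g • x + g • y := g.2.1 x y

theorem smul_zero'' (g : Co0) : g • (0 : leechLattice) = 0 := by
  have h := smul_add'' g 0 0
  rw [add_zero] at h
  exact left_eq_add.1 h

theorem smul_neg'' (g : Co0) (x : leechLattice) : g • (-x) = -(g • x) := by
  have h := smul_add'' g (-x) x
  rw [neg_add_cancel, smul_zero''] at h
  exact eq_neg_of_add_eq_zero_left h.symm

theorem smul_sub'' (g : Co0) (x y : leechLattice) : g • (x - y) = g • x - g • y := by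
  rw [sub_eq_add_neg, smul_add'', smul_neg'', ← sub_eq_add_neg]

/-- the action on the lattice by additive automorphisms -/
instance instDMA : DistribMulAction Co0 leechLattice where
  smul_zero := smul_zero''
  smul_add := smul_add''

/-! ### counting -/

theorem ncard_sub (Q : (GolayPt → ℤ) → Prop) :
    {x : GolayPt → ℤ | x ∈ leechLattice ∧ Q x}.ncard = {x : leechLattice | Q x}.ncard := by
  rw [← Set.ncard_image_of_injective {x : leechLattice | Q x} Subtype.val_injective]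
  congr 1
  ext x
  constructor
  · rintro ⟨h1, h2⟩; exact ⟨⟨x, h1⟩, h2, rfl⟩
  · rintro ⟨y, h, rfl⟩; exact ⟨y.2, h⟩

theorem ncard_smul (g : Co0) (P Q : leechLattice → Prop) (h : ∀ x, P x ↔ Q (g • x)) :
    {x : leechLattice | P x}.ncard = {x : leechLattice | Q x}.ncard := by
  rw [← Set.ncard_image_of_injective {x : leechLattice | P x} (MulAction.injective g)]
  congr 1
  ext x
  constructor
  · rintro ⟨y, hy, rfl⟩; exact (h y).1 hy
  · intro hx
    exact ⟨g⁻¹ • x, (h _).2 (by rw [smul_inv_smul]; exact hx), smul_inv_smul g x⟩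

theorem finite_nm (n : ℤ) : {x : leechLattice | Nm x = n}.Finite := finite_norm n

/-! ### transitivity -/

theorem trans32 (x y : leechLattice) (hx : Nm x = 32) (hy : Nm y = 32) : ∃ g : Co0, g • x = y :=
  H7.T1.trans x y hx hy

theorem std32 (x : leechLattice) (hx : Nm x = 32) : ∃ g : Co0, g • x = vU := trans32 x vU hx vU_norm

/-- transport of pairs -/
theorem pair_of (a b : leechLattice) (n k : ℤ) (h1 : ∀ x, Nm x = Nm a → ∃ g : Co0, g • x = a)
    (h2 : ∀ x y : leechLattice, Nm x = n → Dt x a = k → Nm y = n → Dt y a = k → ∃ g : Co0, g • a = a ∧ g • x = y)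
    (x y x' y' : leechLattice) (hx : Nm x = Nm a) (hx' : Nm x' = Nm a) (hy : Nm y = n) (hy' : Nm y' = n)
    (hxy : Dt y x = k) (hxy' : Dt y' x' = k) : ∃ g : Co0, g • x = x' ∧ g • y = y' := by
  obtain ⟨g, hg⟩ := h1 x hx
  obtain ⟨g', hg'⟩ := h1 x' hx'
  obtain ⟨k', hk1, hk2⟩ := h2 (g • y) (g' • y') (by rw [nm_smul, hy]) (by rw [← hg, dt_smul, hxy])
    (by rw [nm_smul, hy']) (by rw [← hg', dt_smul, hxy'])
  refine ⟨g'⁻¹ * k' * g, ?_, ?_⟩
  · rw [mul_smul, mul_smul, hg, hk1, ← hg', inv_smul_smul]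
  · rw [mul_smul, mul_smul, hk2, inv_smul_smul]

theorem pair_m16 (x y x' y' : leechLattice) (hx : Nm x = 32) (hx' : Nm x' = 32) (hy : Nm y = 32) (hy' : Nm y' = 32)
    (hxy : Dt y x = -16) (hxy' : Dt y' x' = -16) : ∃ g : Co0, g • x = x' ∧ g • y = y' :=
  pair_of vU vU 32 (-16) (fun x hx => std32 x (hx.trans vU_norm))
    (fun x y h1 h2 h3 h4 => by
      obtain ⟨g, hg1, hg2⟩ := H7.T4a.trans x y ⟨h1, h2⟩ ⟨h3, h4⟩
      exact ⟨g, hg1 _ rfl, hg2⟩) x y x' y' (hx.trans vU_norm.symm) (hx'.trans vU_norm.symm) hy hy' hxy hxy'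

theorem pair_m8 (x y x' y' : leechLattice) (hx : Nm x = 32) (hx' : Nm x' = 32) (hy : Nm y = 32) (hy' : Nm y' = 32)
    (hxy : Dt y x = -8) (hxy' : Dt y' x' = -8) : ∃ g : Co0, g • x = x' ∧ g • y = y' :=
  pair_of vU vU 32 (-8) (fun x hx => std32 x (hx.trans vU_norm))
    (fun x y h1 h2 h3 h4 => by
      obtain ⟨g, hg1, hg2⟩ := H7.T4b.trans x y ⟨h1, h2⟩ ⟨h3, h4⟩
      exact ⟨g, hg1 _ rfl, hg2⟩) x y x' y' (hx.trans vU_norm.symm) (hx'.trans vU_norm.symm) hy hy' hxy hxy'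

theorem pair_0 (x y x' y' : leechLattice) (hx : Nm x = 32) (hx' : Nm x' = 32) (hy : Nm y = 32) (hy' : Nm y' = 32)
    (hxy : Dt y x = 0) (hxy' : Dt y' x' = 0) : ∃ g : Co0, g • x = x' ∧ g • y = y' :=
  pair_of vU vU 32 0 (fun x hx => std32 x (hx.trans vU_norm))
    (fun x y h1 h2 h3 h4 => by
      obtain ⟨g, hg1, hg2⟩ := H7.T4c.trans x y ⟨h1, h2⟩ ⟨h3, h4⟩
      exact ⟨g, hg1 _ rfl, hg2⟩) x y x' y' (hx.trans vU_norm.symm) (hx'.trans vU_norm.symm) hy hy' hxy hxy'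

/-- pairs (norm 48, norm 32) with inner product 24 -/
theorem pair48_24 (x y x' y' : leechLattice) (hx : Nm x = 48) (hx' : Nm x' = 48) (hy : Nm y = 32) (hy' : Nm y' = 32)
    (hxy : Dt y x = 24) (hxy' : Dt y' x' = 24) : ∃ g : Co0, g • x = x' ∧ g • y = y' := by
  have h1 : ∀ x y : leechLattice, Nm x = 48 → Nm y = 32 → Dt y x = 24 → Nm (x - y) = 32 ∧ Dt (x - y) y = -8 := by
    intro x y h1 h2 h3
    constructor
    · rw [nm_sub, dt_comm, h1, h2, h3]; norm_num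
    · rw [dt_sub, dt_self, dt_comm, h3, h2]; norm_num
  obtain ⟨a1, a2⟩ := h1 x y hx hy hxy
  obtain ⟨b1, b2⟩ := h1 x' y' hx' hy' hxy'
  obtain ⟨g, hg1, hg2⟩ := pair_m8 y (x - y) y' (x' - y') hy hy' a1 b1 a2 b2
  refine ⟨g, ?_, hg1⟩
  have : x = (x - y) + y := (sub_add_cancel x y).symm
  rw [this, smul_add'', hg1, hg2, sub_add_cancel]

theorem near48 (x : leechLattice) (hx : Nm x = 48) : ∃ v : leechLattice, Nm v = 32 ∧ Dt v x = 24 := by
  obtain ⟨v, h1, h2, h3⟩ := D48 x.2 hx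
  exact ⟨⟨v, h1⟩, h2, by rw [dt_comm]; exact h3⟩

theorem near64 (x : leechLattice) (hx : Nm x = 64) : ∃ v : leechLattice, Nm v = 32 ∧ Dt v x = 32 := by
  obtain ⟨v, h1, h2, h3⟩ := D64 x.2 hx
  exact ⟨⟨v, h1⟩, h2, by rw [dt_comm]; exact h3⟩

theorem trans48 (x y : leechLattice) (hx : Nm x = 48) (hy : Nm y = 48) : ∃ g : Co0, g • x = y := by
  obtain ⟨v, h1, h2⟩ := near48 x hx
  obtain ⟨w, h3, h4⟩ := near48 y hy
  obtain ⟨g, hg, _⟩ := pair48_24 x v y w hx hy h1 h3 h2 h4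
  exact ⟨g, hg⟩

/-- pairs (norm 64, norm 32) with inner product 32 -/
theorem pair64 (x y x' y' : leechLattice) (hx : Nm x = 64) (hx' : Nm x' = 64) (hy : Nm y = 32) (hy' : Nm y' = 32)
    (hxy : Dt y x = 32) (hxy' : Dt y' x' = 32) : ∃ g : Co0, g • x = x' ∧ g • y = y' := by
  have h1 : ∀ x y : leechLattice, Nm x = 64 → Nm y = 32 → Dt y x = 32 → Nm (x - y) = 32 ∧ Dt (x - y) y = 0 := by
    intro x y h1 h2 h3
    constructor
    · rw [nm_sub, dt_comm, h1, h2, h3]; norm_num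
    · rw [dt_sub, dt_self, dt_comm, h3, h2]; norm_num
  obtain ⟨a1, a2⟩ := h1 x y hx hy hxy
  obtain ⟨b1, b2⟩ := h1 x' y' hx' hy' hxy'
  obtain ⟨g, hg1, hg2⟩ := pair_0 y (x - y) y' (x' - y') hy hy' a1 b1 a2 b2
  refine ⟨g, ?_, hg1⟩
  have : x = (x - y) + y := (sub_add_cancel x y).symm
  rw [this, smul_add'', hg1, hg2, sub_add_cancel]

theorem trans64 (x y : leechLattice) (hx : Nm x = 64) (hy : Nm y = 64) : ∃ g : Co0, g • x = y := by
  obtain ⟨v, h1, h2⟩ := near64 x hx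
  obtain ⟨w, h3, h4⟩ := near64 y hy
  obtain ⟨g, hg, _⟩ := pair64 x v y w hx hy h1 h3 h2 h4
  exact ⟨g, hg⟩

/-- pairs (norm 48, norm 32) with inner product 16 -/
theorem pair48_16 (x y x' y' : leechLattice) (hx : Nm x = 48) (hx' : Nm x' = 48) (hy : Nm y = 32) (hy' : Nm y' = 32)
    (hxy : Dt y x = 16) (hxy' : Dt y' x' = 16) : ∃ g : Co0, g • x = x' ∧ g • y = y' := by
  obtain ⟨g, hg1, hg2⟩ := pair_of vE vE 32 (-16) (fun x hx => trans48 x vE (hx.trans vE_norm) vE_norm)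
    (fun x y h1 h2 h3 h4 => by
      obtain ⟨g, hg1, hg2⟩ := H7.T5b.trans x y ⟨h1, h2⟩ ⟨h3, h4⟩
      exact ⟨g, hg1 _ rfl, hg2⟩) x (-y) x' (-y') (hx.trans vE_norm.symm) (hx'.trans vE_norm.symm)
        ((nm_neg y).trans hy) ((nm_neg y').trans hy') (by rw [dt_neg, hxy]) (by rw [dt_neg, hxy'])
  refine ⟨g, hg1, ?_⟩
  rw [smul_neg''] at hg2
  exact neg_injective hg2

/-! ### counts around a vector -/

theorem cnt_of (v : leechLattice) (n k : ℤ) (N : ℕ) (v0 : leechLattice) (hv : Nm v = Nm v0)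
    (ht : ∀ x, Nm x = Nm v0 → ∃ g : Co0, g • x = v0)
    (hc : {x : GolayPt → ℤ | x ∈ leechLattice ∧ sqNorm x = n ∧ dotInt x v0 = k}.ncard = N) :
    {x : leechLattice | Nm x = n ∧ Dt x v = k}.ncard = N := by
  obtain ⟨g, hg⟩ := ht v hv
  rw [ncard_sub (fun x => sqNorm x = n ∧ dotInt x v0 = k)] at hc
  rw [← hc]
  apply ncard_smul g
  intro x
  rw [← hg]
  show _ ↔ (Nm (g • x) = n ∧ Dt (g • x) (g • v) = k)
  rw [nm_smul, dt_smul]

theorem cnt_m16 (v : leechLattice) (hv : Nm v = 32) : {x : leechLattice | Nm x = 32 ∧ Dt x v = -16}.ncard = 4600 :=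
  cnt_of v 32 (-16) _ vU (hv.trans vU_norm.symm) (fun x hx => std32 x (hx.trans vU_norm)) H7.T4a.count

theorem cnt_m8 (v : leechLattice) (hv : Nm v = 32) : {x : leechLattice | Nm x = 32 ∧ Dt x v = -8}.ncard = 47104 :=
  cnt_of v 32 (-8) _ vU (hv.trans vU_norm.symm) (fun x hx => std32 x (hx.trans vU_norm)) H7.T4b.count

theorem cnt_0 (v : leechLattice) (hv : Nm v = 32) : {x : leechLattice | Nm x = 32 ∧ Dt x v = 0}.ncard = 93150 :=
  cnt_of v 32 0 _ vU (hv.trans vU_norm.symm) (fun x hx => std32 x (hx.trans vU_norm)) H7.T4c.count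

theorem cnt48_24 (v : leechLattice) (hv : Nm v = 48) : {x : leechLattice | Nm x = 32 ∧ Dt x v = 24}.ncard = 552 :=
  cnt_of v 32 24 _ vE (hv.trans vE_norm.symm) (fun x hx => trans48 x vE (hx.trans vE_norm) vE_norm) H7.T5a.count

theorem cnt48_m16 (v : leechLattice) (hv : Nm v = 48) : {x : leechLattice | Nm x = 32 ∧ Dt x v = -16}.ncard = 11178 :=
  cnt_of v 32 (-16) _ vE (hv.trans vE_norm.symm) (fun x hx => trans48 x vE (hx.trans vE_norm) vE_norm) H7.T5b.count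

end Cfsg.Agent.H7.Co
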