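import Mathlib
import Cfsg.Agent.H7_Co
import Cfsg.Agent.H7_T6a
import Cfsg.Agent.H7_T6b
import Cfsg.Agent.H7_T6c
import Cfsg.Agent.H7_T7a
import Cfsg.Agent.H7_T7b
import Cfsg.Agent.H7_T7c

set_option autoImplicit false

/-!
Triangles of type 2-2-3 and 3-3-2, and the rank three actions of `McL` and `HS`.
-/

namespace Cfsg.Agent.H7.Co2

open Cfsg Cfsg.Agent.H7.Golay Cfsg.Agent.H7.Oct Cfsg.Agent.H7.L1 Cfsg.Agent.H7.L2 Cfsg.Agent.H7.L4 Cfsg.Agent.H7.L5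
  Cfsg.Agent.H7.L6 Cfsg.Agent.H7.L7 Cfsg.Agent.H7.L8 Cfsg.Agent.H7.L9 Cfsg.Agent.H7.L10 Cfsg.Agent.H7.L11 Cfsg.Agent.H7.LV
  Cfsg.Agent.H7.Co

theorem dt_vE_vU : Dt vU vE = 24 := by
  show dotInt (vU : GolayPt → ℤ) vE = 24
  rw [vU_coe, vE_coe]; decide +kernel

theorem dt_vE_vZ : Dt vZ vE = 16 := by
  show dotInt (vZ : GolayPt → ℤ) vE = 16
  rw [vZ_coe, vE_coe]; decide +kernel

theorem dt_vX : Nm vX = 32 ∧ Dt vX vE = 24 ∧ Dt vX vU = 16 := by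
  refine ⟨vX_norm, ?_, ?_⟩
  · show dotInt (vX : GolayPt → ℤ) vE = 24
    rw [vX_coe, vE_coe]; decide +kernel
  · show dotInt (vX : GolayPt → ℤ) vU = 16
    rw [vX_coe, vU_coe]; decide +kernel

theorem dt_vU : Nm vU = 32 ∧ Dt vU vE = 24 ∧ Dt vU vZ = 0 := by
  refine ⟨vU_norm, dt_vE_vU, ?_⟩
  show dotInt (vU : GolayPt → ℤ) vZ = 0
  rw [vU_coe, vZ_coe]; decide +kernel

/-- standard form of a pair for `McL` -/
theorem std_mcl (u v : leechLattice) (hu : Nm u = 48) (hv : Nm v = 32) (h : Dt v u = 24) :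
    ∃ g : Co0, g • u = vE ∧ g • v = vU :=
  pair48_24 u v vE vU hu vE_norm hv vU_norm h dt_vE_vU

/-- standard form of a pair for `HS` -/
theorem std_hs (u v : leechLattice) (hu : Nm u = 48) (hv : Nm v = 32) (h : Dt v u = 16) :
    ∃ g : Co0, g • u = vE ∧ g • v = vZ :=
  pair48_16 u v vE vZ hu vE_norm hv vZ_norm h dt_vE_vZ

/-- standard form of triples, `McL` case -/
theorem std_mcl3 (u v x : leechLattice) (hu : Nm u = 48) (hv : Nm v = 32) (h : Dt v u = 24) (hx : Nm x = 32)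
    (h1 : Dt x u = 24) (h2 : Dt x v = 16) : ∃ g : Co0, g • u = vE ∧ g • v = vU ∧ g • x = vX := by
  obtain ⟨g, g1, g2⟩ := std_mcl u v hu hv h
  obtain ⟨k, k1, k2⟩ := H7.T6a.trans (g • x) vX ⟨by rw [norm_smul]; exact hx, by
    have e := dt_smul g x u
    rw [g1] at e; exact e.trans h1, by
    have e := dt_smul g x v
    rw [g2] at e; exact e.trans h2⟩ dt_vX
  refine ⟨k * g, ?_, ?_, ?_⟩
  · rw [mul_smul, g1, k1 vE (by unfold H7.T6a.V; simp)]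
  · rw [mul_smul, g2, k1 vU (by unfold H7.T6a.V; simp)]
  · rw [mul_smul, k2]

/-- standard form of triples, `HS` case -/
theorem std_hs3 (u v x : leechLattice) (hu : Nm u = 48) (hv : Nm v = 32) (h : Dt v u = 16) (hx : Nm x = 32)
    (h1 : Dt x u = 24) (h2 : Dt x v = 0) : ∃ g : Co0, g • u = vE ∧ g • v = vZ ∧ g • x = vU := by
  obtain ⟨g, g1, g2⟩ := std_hs u v hu hv h
  obtain ⟨k, k1, k2⟩ := H7.T7a.trans (g • x) vU ⟨by rw [norm_smul]; exact hx, by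
    have e := dt_smul g x u
    rw [g1] at e; exact e.trans h1, by
    have e := dt_smul g x v
    rw [g2] at e; exact e.trans h2⟩ dt_vU
  refine ⟨k * g, ?_, ?_, ?_⟩
  · rw [mul_smul, g1, k1 vE (by unfold H7.T7a.V; simp)]
  · rw [mul_smul, g2, k1 vZ (by unfold H7.T7a.V; simp)]
  · rw [mul_smul, k2]

/-- `McL` is transitive on the 275 -/
theorem mcl_trans (u v x y : leechLattice) (hu : Nm u = 48) (hv : Nm v = 32) (h : Dt v u = 24) (hx : Nm x = 32)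
    (h1 : Dt x u = 24) (h2 : Dt x v = 16) (hy : Nm y = 32)
    (h3 : Dt y u = 24) (h4 : Dt y v = 16) : ∃ g : Co0, g • u = u ∧ g • v = v ∧ g • x = y := by
  obtain ⟨g, g1, g2, g3⟩ := std_mcl3 u v x hu hv h hx h1 h2
  obtain ⟨k, k1, k2, k3⟩ := std_mcl3 u v y hu hv h hy h3 h4
  refine ⟨k⁻¹ * g, ?_, ?_, ?_⟩
  · rw [mul_smul, g1, ← k1, inv_smul_smul]
  · rw [mul_smul, g2, ← k2, inv_smul_smul]
  · rw [mul_smul, g3, ← k3, inv_smul_smul]

theorem mcl_count (u v : leechLattice) (hu : Nm u = 48) (hv : Nm v = 32) (h : Dt v u = 24) :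
    {x : leechLattice | Nm x = 32 ∧ Dt x u = 24 ∧ Dt x v = 16}.ncard = 275 := by
  obtain ⟨g, g1, g2⟩ := std_mcl u v hu hv h
  have hc := H7.T6a.count
  rw [ncard_sub (fun x => sqNorm x = 32 ∧ (dotInt x vE = 24 ∧ dotInt x vU = 16))] at hc
  rw [← hc]
  apply ncard_smul g
  intro x
  show _ ↔ (Nm (g • x) = 32 ∧ (Dt (g • x) vE = 24 ∧ Dt (g • x) vU = 16))
  rw [← g1, ← g2, nm_smul, dt_smul, dt_smul]

theorem mcl_count3 (u v x : leechLattice) (hu : Nm u = 48) (hv : Nm v = 32) (h : Dt v u = 24) (hx : Nm x = 32)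
    (h1 : Dt x u = 24) (h2 : Dt x v = 16) :
    {y : leechLattice | Nm y = 32 ∧ Dt y u = 24 ∧ Dt y v = 16 ∧ Dt y x = 8}.ncard = 112 ∧
    {y : leechLattice | Nm y = 32 ∧ Dt y u = 24 ∧ Dt y v = 16 ∧ Dt y x = 16}.ncard = 162 := by
  obtain ⟨g, g1, g2, g3⟩ := std_mcl3 u v x hu hv h hx h1 h2
  constructor
  · have hc := H7.T6b.count
    rw [ncard_sub (fun y => sqNorm y = 32 ∧ (dotInt y vE = 24 ∧ dotInt y vU = 16 ∧ dotInt y vX = 8))] at hc
    rw [← hc]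
    apply ncard_smul g
    intro y
    show _ ↔ (Nm (g • y) = 32 ∧ (Dt (g • y) vE = 24 ∧ Dt (g • y) vU = 16 ∧ Dt (g • y) vX = 8))
    rw [← g1, ← g2, ← g3, nm_smul, dt_smul, dt_smul, dt_smul]
  · have hc := H7.T6c.count
    rw [ncard_sub (fun y => sqNorm y = 32 ∧ (dotInt y vE = 24 ∧ dotInt y vU = 16 ∧ dotInt y vX = 16))] at hc
    rw [← hc]
    apply ncard_smul g
    intro y
    show _ ↔ (Nm (g • y) = 32 ∧ (Dt (g • y) vE = 24 ∧ Dt (g • y) vU = 16 ∧ Dt (g • y) vX = 16))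
    rw [← g1, ← g2, ← g3, nm_smul, dt_smul, dt_smul, dt_smul]

/-- suborbits of `McL` on the 275 -/
theorem mcl_trans3 (u v x y z : leechLattice) (k : ℤ) (hk : k = 8 ∨ k = 16) (hu : Nm u = 48) (hv : Nm v = 32)
    (h : Dt v u = 24) (hx : Nm x = 32) (h1 : Dt x u = 24) (h2 : Dt x v = 16)
    (hy : Nm y = 32) (h3 : Dt y u = 24) (h4 : Dt y v = 16) (h5 : Dt y x = k)
    (hz : Nm z = 32) (h6 : Dt z u = 24) (h7 : Dt z v = 16) (h8 : Dt z x = k) :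
    ∃ g : Co0, g • u = u ∧ g • v = v ∧ g • x = x ∧ g • y = z := by
  obtain ⟨g, g1, g2, g3⟩ := std_mcl3 u v x hu hv h hx h1 h2
  have e : ∀ y : leechLattice, Dt (g • y) vE = Dt y u ∧ Dt (g • y) vU = Dt y v ∧ Dt (g • y) vX = Dt y x := by
    intro y
    rw [← g1, ← g2, ← g3, dt_smul, dt_smul, dt_smul]
    exact ⟨rfl, rfl, rfl⟩
  obtain ⟨k', k1, k2, k3, k4⟩ : ∃ k' : Co0, k' • vE = vE ∧ k' • vU = vU ∧ k' • vX = vX ∧ k' • (g • y) = g • z := by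
    rcases hk with rfl | rfl
    · obtain ⟨k', k1, k2⟩ := H7.T6b.trans (g • y) (g • z) ⟨by rw [norm_smul]; exact hy, (e y).1.trans h3,
        (e y).2.1.trans h4, (e y).2.2.trans h5⟩ ⟨by rw [norm_smul]; exact hz, (e z).1.trans h6,
        (e z).2.1.trans h7, (e z).2.2.trans h8⟩
      exact ⟨k', k1 vE (by unfold H7.T6b.V; simp), k1 vU (by unfold H7.T6b.V; simp), k1 vX (by unfold H7.T6b.V; simp), k2⟩
    · obtain ⟨k', k1, k2⟩ := H7.T6c.trans (g • y) (g • z) ⟨by rw [norm_smul]; exact hy, (e y).1.trans h3,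
        (e y).2.1.trans h4, (e y).2.2.trans h5⟩ ⟨by rw [norm_smul]; exact hz, (e z).1.trans h6,
        (e z).2.1.trans h7, (e z).2.2.trans h8⟩
      exact ⟨k', k1 vE (by unfold H7.T6c.V; simp), k1 vU (by unfold H7.T6c.V; simp), k1 vX (by unfold H7.T6c.V; simp), k2⟩
  refine ⟨g⁻¹ * k' * g, ?_, ?_, ?_, ?_⟩
  · rw [mul_smul, mul_smul, g1, k1, ← g1, inv_smul_smul]
  · rw [mul_smul, mul_smul, g2, k2, ← g2, inv_smul_smul]
  · rw [mul_smul, mul_smul, g3, k3, ← g3, inv_smul_smul]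
  · rw [mul_smul, mul_smul, k4, inv_smul_smul]

/-- `HS` is transitive on the 100 -/
theorem hs_trans (u v x y : leechLattice) (hu : Nm u = 48) (hv : Nm v = 32) (h : Dt v u = 16) (hx : Nm x = 32)
    (h1 : Dt x u = 24) (h2 : Dt x v = 0) (hy : Nm y = 32)
    (h3 : Dt y u = 24) (h4 : Dt y v = 0) : ∃ g : Co0, g • u = u ∧ g • v = v ∧ g • x = y := by
  obtain ⟨g, g1, g2, g3⟩ := std_hs3 u v x hu hv h hx h1 h2
  obtain ⟨k, k1, k2, k3⟩ := std_hs3 u v y hu hv h hy h3 h4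
  refine ⟨k⁻¹ * g, ?_, ?_, ?_⟩
  · rw [mul_smul, g1, ← k1, inv_smul_smul]
  · rw [mul_smul, g2, ← k2, inv_smul_smul]
  · rw [mul_smul, g3, ← k3, inv_smul_smul]

theorem hs_count (u v : leechLattice) (hu : Nm u = 48) (hv : Nm v = 32) (h : Dt v u = 16) :
    {x : leechLattice | Nm x = 32 ∧ Dt x u = 24 ∧ Dt x v = 0}.ncard = 100 := by
  obtain ⟨g, g1, g2⟩ := std_hs u v hu hv h
  have hc := H7.T7a.count
  rw [ncard_sub (fun x => sqNorm x = 32 ∧ (dotInt x vE = 24 ∧ dotInt x vZ = 0))] at hc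
  rw [← hc]
  apply ncard_smul g
  intro x
  show _ ↔ (Nm (g • x) = 32 ∧ (Dt (g • x) vE = 24 ∧ Dt (g • x) vZ = 0))
  rw [← g1, ← g2, nm_smul, dt_smul, dt_smul]

theorem hs_count3 (u v x : leechLattice) (hu : Nm u = 48) (hv : Nm v = 32) (h : Dt v u = 16) (hx : Nm x = 32)
    (h1 : Dt x u = 24) (h2 : Dt x v = 0) :
    {y : leechLattice | Nm y = 32 ∧ Dt y u = 24 ∧ Dt y v = 0 ∧ Dt y x = 8}.ncard = 22 ∧
    {y : leechLattice | Nm y = 32 ∧ Dt y u = 24 ∧ Dt y v = 0 ∧ Dt y x = 16}.ncard = 77 := by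
  obtain ⟨g, g1, g2, g3⟩ := std_hs3 u v x hu hv h hx h1 h2
  constructor
  · have hc := H7.T7b.count
    rw [ncard_sub (fun y => sqNorm y = 32 ∧ (dotInt y vE = 24 ∧ dotInt y vZ = 0 ∧ dotInt y vU = 8))] at hc
    rw [← hc]
    apply ncard_smul g
    intro y
    show _ ↔ (Nm (g • y) = 32 ∧ (Dt (g • y) vE = 24 ∧ Dt (g • y) vZ = 0 ∧ Dt (g • y) vU = 8))
    rw [← g1, ← g2, ← g3, nm_smul, dt_smul, dt_smul, dt_smul]
  · have hc := H7.T7c.count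
    rw [ncard_sub (fun y => sqNorm y = 32 ∧ (dotInt y vE = 24 ∧ dotInt y vZ = 0 ∧ dotInt y vU = 16))] at hc
    rw [← hc]
    apply ncard_smul g
    intro y
    show _ ↔ (Nm (g • y) = 32 ∧ (Dt (g • y) vE = 24 ∧ Dt (g • y) vZ = 0 ∧ Dt (g • y) vU = 16))
    rw [← g1, ← g2, ← g3, nm_smul, dt_smul, dt_smul, dt_smul]

/-- suborbits of `HS` on the 100 -/
theorem hs_trans3 (u v x y z : leechLattice) (k : ℤ) (hk : k = 8 ∨ k = 16) (hu : Nm u = 48) (hv : Nm v = 32)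
    (h : Dt v u = 16) (hx : Nm x = 32) (h1 : Dt x u = 24) (h2 : Dt x v = 0)
    (hy : Nm y = 32) (h3 : Dt y u = 24) (h4 : Dt y v = 0) (h5 : Dt y x = k)
    (hz : Nm z = 32) (h6 : Dt z u = 24) (h7 : Dt z v = 0) (h8 : Dt z x = k) :
    ∃ g : Co0, g • u = u ∧ g • v = v ∧ g • x = x ∧ g • y = z := by
  obtain ⟨g, g1, g2, g3⟩ := std_hs3 u v x hu hv h hx h1 h2
  have e : ∀ y : leechLattice, Dt (g • y) vE = Dt y u ∧ Dt (g • y) vZ = Dt y v ∧ Dt (g • y) vU = Dt y x := by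
    intro y
    rw [← g1, ← g2, ← g3, dt_smul, dt_smul, dt_smul]
    exact ⟨rfl, rfl, rfl⟩
  obtain ⟨k', k1, k2, k3, k4⟩ : ∃ k' : Co0, k' • vE = vE ∧ k' • vZ = vZ ∧ k' • vU = vU ∧ k' • (g • y) = g • z := by
    rcases hk with rfl | rfl
    · obtain ⟨k', k1, k2⟩ := H7.T7b.trans (g • y) (g • z) ⟨by rw [norm_smul]; exact hy, (e y).1.trans h3,
        (e y).2.1.trans h4, (e y).2.2.trans h5⟩ ⟨by rw [norm_smul]; exact hz, (e z).1.trans h6,
        (e z).2.1.trans h7, (e z).2.2.trans h8⟩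
      exact ⟨k', k1 vE (by unfold H7.T7b.V; simp), k1 vZ (by unfold H7.T7b.V; simp), k1 vU (by unfold H7.T7b.V; simp), k2⟩
    · obtain ⟨k', k1, k2⟩ := H7.T7c.trans (g • y) (g • z) ⟨by rw [norm_smul]; exact hy, (e y).1.trans h3,
        (e y).2.1.trans h4, (e y).2.2.trans h5⟩ ⟨by rw [norm_smul]; exact hz, (e z).1.trans h6,
        (e z).2.1.trans h7, (e z).2.2.trans h8⟩
      exact ⟨k', k1 vE (by unfold H7.T7c.V; simp), k1 vZ (by unfold H7.T7c.V; simp), k1 vU (by unfold H7.T7c.V; simp), k2⟩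
  refine ⟨g⁻¹ * k' * g, ?_, ?_, ?_, ?_⟩
  · rw [mul_smul, mul_smul, g1, k1, ← g1, inv_smul_smul]
  · rw [mul_smul, mul_smul, g2, k2, ← g2, inv_smul_smul]
  · rw [mul_smul, mul_smul, g3, k3, ← g3, inv_smul_smul]
  · rw [mul_smul, mul_smul, k4, inv_smul_smul]

/-- inner products on the 275 -/
theorem mcl_dots (u v x y : leechLattice) (hu : Nm u = 48) (hv : Nm v = 32) (h : Dt v u = 24) (hx : Nm x = 32)
    (h1 : Dt x u = 24) (h2 : Dt x v = 16) (hy : Nm y = 32) (h3 : Dt y u = 24) (h4 : Dt y v = 16) (hne : y ≠ x) :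
    Dt y x = 8 ∨ Dt y x = 16 := by
  have a1 : Nm (y - x) = 64 - 2 * Dt y x := by rw [nm_sub, hx, hy]; ring
  have a2 := nm_min (sub_ne_zero.2 hne)
  have a3 : Dt y x % 8 = 0 := dot_emod y.2 x.2
  have a4 : Nm (x + y - u) = 16 + 2 * Dt y x := by
    rw [nm_sub, nm_add, dt_add, dt_comm x y, h1, h3, hx, hy, hu]
    ring
  by_cases a6 : x + y - u = 0
  · rw [nm_zero_iff.2 a6] at a4
    have a7 : Dt (x + y - u) v = 0 := by rw [a6]; simp [Dt, dotInt]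
    rw [dt_sub, dt_add, h2, h4, dt_comm u v, h] at a7
    omega
  · have := nm_min a6
    omega

/-- inner products on the 100 -/
theorem hs_dots (u v x y : leechLattice) (hu : Nm u = 48) (hv : Nm v = 32) (h : Dt v u = 16) (hx : Nm x = 32)
    (h1 : Dt x u = 24) (h2 : Dt x v = 0) (hy : Nm y = 32) (h3 : Dt y u = 24) (h4 : Dt y v = 0) (hne : y ≠ x) :
    Dt y x = 8 ∨ Dt y x = 16 := by
  have a1 : Nm (y - x) = 64 - 2 * Dt y x := by rw [nm_sub, hx, hy]; ring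
  have a2 := nm_min (sub_ne_zero.2 hne)
  have a3 : Dt y x % 8 = 0 := dot_emod y.2 x.2
  have a4 : Nm (x + y - u) = 16 + 2 * Dt y x := by
    rw [nm_sub, nm_add, dt_add, dt_comm x y, h1, h3, hx, hy, hu]
    ring
  by_cases a6 : x + y - u = 0
  · rw [nm_zero_iff.2 a6] at a4
    have a7 : Dt (x + y - u) v = 0 := by rw [a6]; simp [Dt, dotInt]
    rw [dt_sub, dt_add, h2, h4, dt_comm u v, h] at a7
    omega
  · have := nm_min a6
    omega

end Cfsg.Agent.H7.Co2
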