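import Mathlib
import Cfsg.Agent.H7_Co2
import Cfsg.Agent.H7_T9a
import Cfsg.Agent.H7_T9b
import Cfsg.Agent.H7_T9c
import Cfsg.Agent.H7_T9d
import Cfsg.Agent.H7_T9e
import Cfsg.Agent.H7_T9f
import Cfsg.Agent.H7_T9g
import Cfsg.Agent.H7_T9h

set_option autoImplicit false

/-!
The action of `Co3` on 11178 vectors, of `McL` on 2025 vectors.
-/

namespace Cfsg.Agent.H7.Co7

open Cfsg Cfsg.Agent.H7.Golay Cfsg.Agent.H7.Oct Cfsg.Agent.H7.L1 Cfsg.Agent.H7.L2 Cfsg.Agent.H7.L4 Cfsg.Agent.H7.L5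
  Cfsg.Agent.H7.L6 Cfsg.Agent.H7.L7 Cfsg.Agent.H7.L8 Cfsg.Agent.H7.L9 Cfsg.Agent.H7.L10 Cfsg.Agent.H7.L11 Cfsg.Agent.H7.LV
  Cfsg.Agent.H7.Co Cfsg.Agent.H7.Co2

theorem dt_vE_vZm : Dt vZm vE = -16 := by
  show dotInt (vZm : GolayPt → ℤ) vE = -16
  rw [vZm_coe, vE_coe]; decide +kernel

theorem dt_vZ : Nm vZ = 32 ∧ Dt vZ vE = 16 ∧ Dt vZ vU = 0 := by
  refine ⟨vZ_norm, dt_vE_vZ, ?_⟩
  show dotInt (vZ : GolayPt → ℤ) vU = 0
  rw [vZ_coe, vU_coe]; decide +kernel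

theorem pair48_m16 (x y x' y' : leechLattice) (hx : Nm x = 48) (hx' : Nm x' = 48) (hy : Nm y = 32) (hy' : Nm y' = 32)
    (hxy : Dt y x = -16) (hxy' : Dt y' x' = -16) : ∃ g : Co0, g • x = x' ∧ g • y = y' :=
  pair_of vE vE 32 (-16) (fun x hx => trans48 x vE (hx.trans vE_norm) vE_norm)
    (fun x y h1 h2 h3 h4 => by
      obtain ⟨g, hg1, hg2⟩ := H7.T5b.trans x y ⟨h1, h2⟩ ⟨h3, h4⟩
      exact ⟨g, hg1 _ rfl, hg2⟩) x y x' y' (hx.trans vE_norm.symm) (hx'.trans vE_norm.symm) hy hy' hxy hxy'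

/-- general transport: transitivity of a pointwise stabiliser of two vectors -/
theorem tr_of {a b : leechLattice} {u x : leechLattice} (g : Co0) (g1 : g • u = a) (g2 : g • x = b) {y z : leechLattice}
    (h : ∃ k : Co0, k • a = a ∧ k • b = b ∧ k • (g • y) = g • z) : ∃ k : Co0, k • u = u ∧ k • x = x ∧ k • y = z := by
  obtain ⟨k, k1, k2, k3⟩ := h
  refine ⟨g⁻¹ * k * g, ?_, ?_, ?_⟩
  · rw [mul_smul, mul_smul, g1, k1, ← g1, inv_smul_smul]
  · rw [mul_smul, mul_smul, g2, k2, ← g2, inv_smul_smul]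
  · rw [mul_smul, mul_smul, k3, inv_smul_smul]

theorem tr_of3 {a b c : leechLattice} {u x w : leechLattice} (g : Co0) (g1 : g • u = a) (g2 : g • x = b) (g3 : g • w = c)
    {y z : leechLattice} (h : ∃ k : Co0, k • a = a ∧ k • b = b ∧ k • c = c ∧ k • (g • y) = g • z) :
    ∃ k : Co0, k • u = u ∧ k • x = x ∧ k • w = w ∧ k • y = z := by
  obtain ⟨k, k1, k2, k4, k3⟩ := h
  refine ⟨g⁻¹ * k * g, ?_, ?_, ?_, ?_⟩
  · rw [mul_smul, mul_smul, g1, k1, ← g1, inv_smul_smul]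
  · rw [mul_smul, mul_smul, g2, k2, ← g2, inv_smul_smul]
  · rw [mul_smul, mul_smul, g3, k4, ← g3, inv_smul_smul]
  · rw [mul_smul, mul_smul, k3, inv_smul_smul]

/-- the allowed values -/
def vals : List (ℤ × ℕ) := [(-8, 352), (16, 1100), (0, 4125), (8, 5600)]

theorem co3_suborb (u x : leechLattice) (hu : Nm u = 48) (hx : Nm x = 32) (hxu : Dt x u = -16) :
    ∀ p ∈ vals, {y : leechLattice | Nm y = 32 ∧ Dt y u = -16 ∧ Dt y x = p.1}.ncard = p.2 ∧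
      ∀ y z : leechLattice, (Nm y = 32 ∧ Dt y u = -16 ∧ Dt y x = p.1) → (Nm z = 32 ∧ Dt z u = -16 ∧ Dt z x = p.1) →
        ∃ k : Co0, k • u = u ∧ k • x = x ∧ k • y = z := by
  obtain ⟨g, g1, g2⟩ := pair48_m16 u x vE vZm hu vE_norm hx vZm_norm hxu dt_vE_vZm
  have e : ∀ y : leechLattice, ∀ k : ℤ, (Nm y = 32 ∧ Dt y u = -16 ∧ Dt y x = k) ↔
      (Nm (g • y) = 32 ∧ (Dt (g • y) vE = -16 ∧ Dt (g • y) vZm = k)) := by
    intro y k
    rw [← g1, ← g2, nm_smul, dt_smul, dt_smul]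
  intro p hp
  simp only [vals, List.mem_cons, List.not_mem_nil, or_false] at hp
  rcases hp with rfl | rfl | rfl | rfl
  · constructor
    · have hc := H7.T9e.count
      rw [ncard_sub (fun y => sqNorm y = 32 ∧ (dotInt y vE = -16 ∧ dotInt y vZm = -8))] at hc
      exact (ncard_smul g _ _ fun y => e y _).trans hc
    · intro y z hy hz
      obtain ⟨k, k1, k2⟩ := H7.T9e.trans (g • y) (g • z) ((e y _).1 hy) ((e z _).1 hz)
      exact tr_of g g1 g2 ⟨k, k1 vE (by unfold H7.T9e.V; simp), k1 vZm (by unfold H7.T9e.V; simp), k2⟩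
  · constructor
    · have hc := H7.T9f.count
      rw [ncard_sub (fun y => sqNorm y = 32 ∧ (dotInt y vE = -16 ∧ dotInt y vZm = 16))] at hc
      exact (ncard_smul g _ _ fun y => e y _).trans hc
    · intro y z hy hz
      obtain ⟨k, k1, k2⟩ := H7.T9f.trans (g • y) (g • z) ((e y _).1 hy) ((e z _).1 hz)
      exact tr_of g g1 g2 ⟨k, k1 vE (by unfold H7.T9f.V; simp), k1 vZm (by unfold H7.T9f.V; simp), k2⟩
  · constructor
    · have hc := H7.T9g.count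
      rw [ncard_sub (fun y => sqNorm y = 32 ∧ (dotInt y vE = -16 ∧ dotInt y vZm = 0))] at hc
      exact (ncard_smul g _ _ fun y => e y _).trans hc
    · intro y z hy hz
      obtain ⟨k, k1, k2⟩ := H7.T9g.trans (g • y) (g • z) ((e y _).1 hy) ((e z _).1 hz)
      exact tr_of g g1 g2 ⟨k, k1 vE (by unfold H7.T9g.V; simp), k1 vZm (by unfold H7.T9g.V; simp), k2⟩
  · constructor
    · have hc := H7.T9h.count
      rw [ncard_sub (fun y => sqNorm y = 32 ∧ (dotInt y vE = -16 ∧ dotInt y vZm = 8))] at hc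
      exact (ncard_smul g _ _ fun y => e y _).trans hc
    · intro y z hy hz
      obtain ⟨k, k1, k2⟩ := H7.T9h.trans (g • y) (g • z) ((e y _).1 hy) ((e z _).1 hz)
      exact tr_of g g1 g2 ⟨k, k1 vE (by unfold H7.T9h.V; simp), k1 vZm (by unfold H7.T9h.V; simp), k2⟩

/-- orbits of the stabiliser of two vectors -/
theorem orbit_eq (u x y : leechLattice) (P : leechLattice → Prop) (hP : P y)
    (hinv : ∀ k : Co0, k • u = u → k • x = x → ∀ z, P z → P (k • z))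
    (ht : ∀ z, P z → ∃ k : Co0, k • u = u ∧ k • x = x ∧ k • y = z) :
    MulAction.orbit ↥(MulAction.stabilizer Co0 u ⊓ MulAction.stabilizer Co0 x) y = {z | P z} := by
  ext z
  rw [MulAction.mem_orbit_iff]
  constructor
  · rintro ⟨⟨k, hk⟩, rfl⟩
    exact hinv k hk.1 hk.2 y hP
  · intro hz
    obtain ⟨k, k1, k2, k3⟩ := ht z hz
    exact ⟨⟨k, ⟨k1, k2⟩⟩, k3⟩

/-- orbits of the stabiliser of three vectors -/
theorem orbit_eq3 (u x w y : leechLattice) (P : leechLattice → Prop) (hP : P y)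
    (hinv : ∀ k : Co0, k • u = u → k • x = x → k • w = w → ∀ z, P z → P (k • z))
    (ht : ∀ z, P z → ∃ k : Co0, k • u = u ∧ k • x = x ∧ k • w = w ∧ k • y = z) :
    MulAction.orbit ↥(MulAction.stabilizer Co0 u ⊓ MulAction.stabilizer Co0 x ⊓ MulAction.stabilizer Co0 w) y = {z | P z} := by
  ext z
  rw [MulAction.mem_orbit_iff]
  constructor
  · rintro ⟨⟨k, hk⟩, rfl⟩
    exact hinv k hk.1.1 hk.1.2 hk.2 y hP
  · intro hz
    obtain ⟨k, k1, k2, k4, k3⟩ := ht z hz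
    exact ⟨⟨k, ⟨⟨k1, k2⟩, k4⟩⟩, k3⟩

theorem nonempty_of_ncard {P : leechLattice → Prop} {n : ℕ} (h : {z | P z}.ncard = n) (hn : n ≠ 0) : ∃ z, P z := by
  have h1 : {z | P z}.Nonempty := Set.nonempty_of_ncard_ne_zero (by rw [h]; exact hn)
  exact h1

/-- the possible inner products -/
theorem co3_dots (u x y : leechLattice) (hu : Nm u = 48) (hx : Nm x = 32) (hxu : Dt x u = -16) (hy : Nm y = 32)
    (hyu : Dt y u = -16) : y = x ∨ Dt y x = -8 ∨ Dt y x = 16 ∨ Dt y x = 0 ∨ Dt y x = 8 := by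
  by_cases h1 : y = x
  · exact Or.inl h1
  right
  have h2 := nm_min (sub_ne_zero.2 h1)
  rw [nm_sub, hx, hy] at h2
  have h3 : Dt y x % 8 = 0 := dot_emod y.2 x.2
  have h4 : Nm (y + x + u) = 48 + 2 * Dt y x := by
    rw [nm_add, nm_add, dt_add, hyu, hxu, hx, hy, hu]; ring
  by_cases h5 : y + x + u = 0
  · rw [nm_zero_iff.2 h5] at h4
    have h6 : Dt (y + x + u) u = 0 := by rw [h5]; simp [Dt, dotInt]
    rw [dt_add, dt_add, dt_self] at h6
    omega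
  · have h6 := nm_min h5
    omega

/-- `McL` on 2025 vectors -/
theorem mcl_2025 (u v : leechLattice) (hu : Nm u = 48) (hv : Nm v = 32) (h : Dt v u = 24) :
    {x : leechLattice | Nm x = 32 ∧ Dt x u = 16 ∧ Dt x v = 0}.ncard = 2025 ∧
    ∀ x y : leechLattice, (Nm x = 32 ∧ Dt x u = 16 ∧ Dt x v = 0) → (Nm y = 32 ∧ Dt y u = 16 ∧ Dt y v = 0) →
      ∃ g : Co0, g • u = u ∧ g • v = v ∧ g • x = y := by
  obtain ⟨g, g1, g2⟩ := std_mcl u v hu hv h
  have e : ∀ y : leechLattice, (Nm y = 32 ∧ Dt y u = 16 ∧ Dt y v = 0) ↔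
      (Nm (g • y) = 32 ∧ (Dt (g • y) vE = 16 ∧ Dt (g • y) vU = 0)) := by
    intro y
    rw [← g1, ← g2, nm_smul, dt_smul, dt_smul]
  constructor
  · have hc := H7.T9a.count
    rw [ncard_sub (fun y => sqNorm y = 32 ∧ (dotInt y vE = 16 ∧ dotInt y vU = 0))] at hc
    exact (ncard_smul g _ _ fun y => e y).trans hc
  · intro x y hx hy
    obtain ⟨k, k1, k2⟩ := H7.T9a.trans (g • x) (g • y) ((e x).1 hx) ((e y).1 hy)
    exact tr_of g g1 g2 ⟨k, k1 vE (by unfold H7.T9a.V; simp), k1 vU (by unfold H7.T9a.V; simp), k2⟩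

/-- the values for `M22` -/
def vals2 : List (ℤ × ℕ) := [(0, 330), (16, 462), (8, 1232)]

theorem std_2025 (u v x : leechLattice) (hu : Nm u = 48) (hv : Nm v = 32) (h : Dt v u = 24)
    (hx : Nm x = 32 ∧ Dt x u = 16 ∧ Dt x v = 0) : ∃ g : Co0, g • u = vE ∧ g • v = vU ∧ g • x = vZ := by
  obtain ⟨g, g1, g2⟩ := std_mcl u v hu hv h
  obtain ⟨k, k1, k2⟩ := H7.T9a.trans (g • x) vZ ⟨by rw [norm_smul]; exact hx.1, by
    have e := dt_smul g x u
    rw [g1] at e; exact e.trans hx.2.1, by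
    have e := dt_smul g x v
    rw [g2] at e; exact e.trans hx.2.2⟩ dt_vZ
  refine ⟨k * g, ?_, ?_, ?_⟩
  · rw [mul_smul, g1, k1 vE (by unfold H7.T9a.V; simp)]
  · rw [mul_smul, g2, k1 vU (by unfold H7.T9a.V; simp)]
  · rw [mul_smul, k2]

theorem mcl_2025_suborb (u v x : leechLattice) (hu : Nm u = 48) (hv : Nm v = 32) (h : Dt v u = 24)
    (hx : Nm x = 32 ∧ Dt x u = 16 ∧ Dt x v = 0) :
    ∀ p ∈ vals2, {y : leechLattice | Nm y = 32 ∧ Dt y u = 16 ∧ Dt y v = 0 ∧ Dt y x = p.1}.ncard = p.2 ∧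
      ∀ y z : leechLattice, (Nm y = 32 ∧ Dt y u = 16 ∧ Dt y v = 0 ∧ Dt y x = p.1) →
        (Nm z = 32 ∧ Dt z u = 16 ∧ Dt z v = 0 ∧ Dt z x = p.1) →
        ∃ k : Co0, k • u = u ∧ k • v = v ∧ k • x = x ∧ k • y = z := by
  obtain ⟨g, g1, g2, g3⟩ := std_2025 u v x hu hv h hx
  have e : ∀ y : leechLattice, ∀ k : ℤ, (Nm y = 32 ∧ Dt y u = 16 ∧ Dt y v = 0 ∧ Dt y x = k) ↔
      (Nm (g • y) = 32 ∧ (Dt (g • y) vE = 16 ∧ Dt (g • y) vU = 0 ∧ Dt (g • y) vZ = k)) := by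
    intro y k
    rw [← g1, ← g2, ← g3, nm_smul, dt_smul, dt_smul, dt_smul]
  intro p hp
  simp only [vals2, List.mem_cons, List.not_mem_nil, or_false] at hp
  rcases hp with rfl | rfl | rfl
  · constructor
    · have hc := H7.T9b.count
      rw [ncard_sub (fun y => sqNorm y = 32 ∧ (dotInt y vE = 16 ∧ dotInt y vU = 0 ∧ dotInt y vZ = 0))] at hc
      exact (ncard_smul g _ _ fun y => e y _).trans hc
    · intro y z hy hz
      obtain ⟨k, k1, k2⟩ := H7.T9b.trans (g • y) (g • z) ((e y _).1 hy) ((e z _).1 hz)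
      exact tr_of3 g g1 g2 g3 ⟨k, k1 vE (by unfold H7.T9b.V; simp), k1 vU (by unfold H7.T9b.V; simp), k1 vZ (by unfold H7.T9b.V; simp), k2⟩
  · constructor
    · have hc := H7.T9c.count
      rw [ncard_sub (fun y => sqNorm y = 32 ∧ (dotInt y vE = 16 ∧ dotInt y vU = 0 ∧ dotInt y vZ = 16))] at hc
      exact (ncard_smul g _ _ fun y => e y _).trans hc
    · intro y z hy hz
      obtain ⟨k, k1, k2⟩ := H7.T9c.trans (g • y) (g • z) ((e y _).1 hy) ((e z _).1 hz)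
      exact tr_of3 g g1 g2 g3 ⟨k, k1 vE (by unfold H7.T9c.V; simp), k1 vU (by unfold H7.T9c.V; simp), k1 vZ (by unfold H7.T9c.V; simp), k2⟩
  · constructor
    · have hc := H7.T9d.count
      rw [ncard_sub (fun y => sqNorm y = 32 ∧ (dotInt y vE = 16 ∧ dotInt y vU = 0 ∧ dotInt y vZ = 8))] at hc
      exact (ncard_smul g _ _ fun y => e y _).trans hc
    · intro y z hy hz
      obtain ⟨k, k1, k2⟩ := H7.T9d.trans (g • y) (g • z) ((e y _).1 hy) ((e z _).1 hz)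
      exact tr_of3 g g1 g2 g3 ⟨k, k1 vE (by unfold H7.T9d.V; simp), k1 vU (by unfold H7.T9d.V; simp), k1 vZ (by unfold H7.T9d.V; simp), k2⟩

end Cfsg.Agent.H7.Co7
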