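import Mathlib
import Cfsg.Agent.H7_LV

set_option autoImplicit false

/-!
Standard vectors of the Leech lattice and tests of inner products with them.
-/

namespace Cfsg.Agent.H7.LV8

open Cfsg Cfsg.Agent.H7.Golay Cfsg.Agent.H7.Oct Cfsg.Agent.H7.L1 Cfsg.Agent.H7.L2 Cfsg.Agent.H7.L3 Cfsg.Agent.H7.L4
  Cfsg.Agent.H7.L5 Cfsg.Agent.H7.L6 Cfsg.Agent.H7.L7 Cfsg.Agent.H7.L8 Cfsg.Agent.H7.L9 Cfsg.Agent.H7.L10 Cfsg.Agent.H7.LV

/-- eight at the last point -/
def vO : leechLattice := mkv 9619703812117222042969618126894569257939173921257144769177958128267671479055038301129717653507438136058628800520 (by decide +kernel) (by decide +kernel)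

theorem vO_okc : okc 9619703812117222042969618126894569257939173921257144769177958128267671479055038301129717653507438136058628800520 = true := by decide +kernel

theorem vO_coe : (vO : GolayPt → ℤ) = dec 9619703812117222042969618126894569257939173921257144769177958128267671479055038301129717653507438136058628800520 := rfl

theorem vO_norm : sqNorm (vO : GolayPt → ℤ) = 64 := by
  rw [vO_coe]; decide +kernel

theorem vO_rev : rev (dec 9619703812117222042969618126894569257939173921257144769177958128267671479055038301129717653507438136058628800520) = 4809888602596411592251961864670007025873776061092905673969426218569707395620320208916062104815431832249225969680 := by decide +kernel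

/-- test for inner product 32 with `vO` -/
def vO_t32 (m : ℕ) : Bool := tdot 4809888602596411592251961864670007025873776061092905673969426218569707395620320208916062104815431832249225969680 1632 m

theorem vO_t32_iff {x : GolayPt → ℤ} (hx : Bd x) : vO_t32 (encL x) = true ↔ dotInt x vO = 32 :=
  tdot_dec (32) vO_okc vO_rev (by decide +kernel) hx


theorem nA : cntA vO_t32 = 46 := by decide +kernel
theorem nBx : nB octL vO_t32 = 0 := by decide +kernel
theorem nCx : nC codeL vO_t32 = 0 := by decide +kernel

theorem count : {x : GolayPt → ℤ | x ∈ leechLattice ∧ sqNorm x = 32 ∧ dotInt x vO = 32}.ncard = 46 :=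
  n_min vO_t32 _ 46 0 0 (fun _ _ h => vO_t32_iff (bd32 h)) nA nBx nCx

end Cfsg.Agent.H7.LV8
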