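import Mathlib
import Cfsg.Agent.H7_L10

set_option autoImplicit false

/-!
The number of minimal vectors, and of those with a given coordinate equal to four.
-/

namespace Cfsg.Agent.H7.N32

open Cfsg Cfsg.Agent.H7.Golay Cfsg.Agent.H7.Oct Cfsg.Agent.H7.L1 Cfsg.Agent.H7.L2 Cfsg.Agent.H7.L3 Cfsg.Agent.H7.L4
  Cfsg.Agent.H7.L5 Cfsg.Agent.H7.L6 Cfsg.Agent.H7.L7 Cfsg.Agent.H7.L8 Cfsg.Agent.H7.L9 Cfsg.Agent.H7.L10

theorem nA : cntA (fun _ => true) = 1104 := by decide +kernel
theorem nBx : nB octL (fun _ => true) = 97152 := by decide +kernel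
theorem nCx : nC codeL (fun _ => true) = 98304 := by decide +kernel

theorem count : {x : GolayPt → ℤ | x ∈ leechLattice ∧ sqNorm x = 32}.ncard = 196560 := by
  have h := n_min (fun _ => true) (fun _ => True) 1104 97152 98304 (fun _ _ _ => ⟨fun _ => trivial, fun _ => rfl⟩) nA nBx nCx
  have e : (196560 : ℕ) = 1104 + (97152 + 98304) := by norm_num
  rw [e, ← h]
  congr 1
  ext x
  simp

end Cfsg.Agent.H7.N32
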