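import Mathlib
import Cfsg.Prelude.Def_SporadicCombinatorics
import Cfsg.Agent.H7_Co
import Cfsg.Agent.H7_LV8
import Cfsg.Agent.H7_N32
import Cfsg.Agent.H7_M24b

set_option autoImplicit false

/-!
Crosses, the monomial group, and the order of `Co0`.
-/

namespace Cfsg.Agent.H7.Co3

open Cfsg Cfsg.Agent.H7.Golay Cfsg.Agent.H7.Oct Cfsg.Agent.H7.L1 Cfsg.Agent.H7.L2 Cfsg.Agent.H7.L3 Cfsg.Agent.H7.L4 Cfsg.Agent.H7.L5
  Cfsg.Agent.H7.L6 Cfsg.Agent.H7.L7 Cfsg.Agent.H7.L8 Cfsg.Agent.H7.L9 Cfsg.Agent.H7.L10 Cfsg.Agent.H7.L11 Cfsg.Agent.H7.LV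
  Cfsg.Agent.H7.LV8 Cfsg.Agent.H7.Co Cfsg.Agent.H7.M24 Cfsg.Agent.H7.M24b
open scoped Pointwise

theorem ncard_Cw : Set.ncard Cw = 4096 := by
  rw [ncard_of_list codeL codeL_nodup (fun m => codeL_lt) Cw (fun s => mem_supports_iff'), codeL_length]

/-! ### double counting -/

theorem double_count {α β : Type*} (A : Set α) (B : Set β) (hA : A.Finite) (hB : B.Finite) (R : α → β → Prop) (m n : ℕ)
    (h1 : ∀ a ∈ A, {b | b ∈ B ∧ R a b}.ncard = m) (h2 : ∀ b ∈ B, {a | a ∈ A ∧ R a b}.ncard = n) :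
    A.ncard * m = B.ncard * n := by
  classical
  rw [Set.ncard_eq_toFinset_card A hA, Set.ncard_eq_toFinset_card B hB]
  apply Finset.card_mul_eq_card_mul R
  · intro a ha
    rw [← h1 a ((Set.Finite.mem_toFinset hA).1 ha), ← Set.ncard_coe_finset]
    congr 1
    ext b
    simp [Finset.bipartiteAbove]
  · intro b hb
    rw [← h2 b ((Set.Finite.mem_toFinset hB).1 hb), ← Set.ncard_coe_finset]
    congr 1
    ext a
    simp [Finset.bipartiteBelow]

theorem cnt32 : {x : leechLattice | Nm x = 32}.ncard = 196560 := by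
  have h := H7.N32.count
  rwa [ncard_sub (fun x => sqNorm x = 32)] at h

theorem cnt64_32 (v : leechLattice) (hv : Nm v = 64) : {x : leechLattice | Nm x = 32 ∧ Dt x v = 32}.ncard = 46 :=
  cnt_of v 32 32 _ vO (hv.trans vO_norm.symm) (fun x hx => trans64 x vO (hx.trans vO_norm) vO_norm) H7.LV8.count

theorem shift_cnt (v : leechLattice) (n k n' k' : ℤ) (hv : Nm v = 32) (h1 : n' = n + 2 * k + 32) (h2 : k' = k + 32) :
    {y : leechLattice | Nm y = n' ∧ Dt v y = k'}.ncard = {x : leechLattice | Nm x = n ∧ Dt x v = k}.ncard := by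
  rw [← Set.ncard_image_of_injective {x : leechLattice | Nm x = n ∧ Dt x v = k} (add_left_injective v)]
  congr 1
  ext y
  constructor
  · rintro ⟨h3, h4⟩
    refine ⟨y - v, ⟨?_, ?_⟩, sub_add_cancel y v⟩
    · rw [nm_sub, hv, dt_comm y v, h3, h4, h1, h2]; ring
    · rw [dt_sub, dt_self, hv, dt_comm y v, h4, h2]; ring
  · rintro ⟨x, ⟨h3, h4⟩, rfl⟩
    refine ⟨?_, ?_⟩
    · show Nm (x + v) = n'
      rw [nm_add, hv, h3, h4, h1]
    · show Dt v (x + v) = k'
      rw [dt_comm, dt_add, dt_self, hv, h4, h2]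

theorem cnt48 : {x : leechLattice | Nm x = 48}.ncard = 16773120 := by
  have h := double_count {x : leechLattice | Nm x = 32} {x : leechLattice | Nm x = 48} (finite_nm 32) (finite_nm 48)
    (fun x y => Dt x y = 24) 47104 552 (fun x hx => (shift_cnt x 32 (-8) 48 24 hx (by norm_num) (by norm_num)).trans (cnt_m8 x hx))
    (fun y hy => cnt48_24 y hy)
  rw [cnt32] at h
  omega

theorem cnt64 : {x : leechLattice | Nm x = 64}.ncard = 398034000 := by
  have h := double_count {x : leechLattice | Nm x = 32} {x : leechLattice | Nm x = 64} (finite_nm 32) (finite_nm 64)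
    (fun x y => Dt x y = 32) 93150 46 (fun x hx => (shift_cnt x 32 0 64 32 hx (by norm_num) (by norm_num)).trans (cnt_0 x hx))
    (fun y hy => cnt64_32 y hy)
  rw [cnt32] at h
  omega

/-! ### the vectors of the standard cross -/

theorem single8_mem (i : GolayPt) : (Pi.single i 8 : GolayPt → ℤ) ∈ leechLattice := by
  obtain ⟨j, hj⟩ : ∃ j, j ≠ i := exists_ne i
  have h1 := (memA (Ne.symm hj) (a := 4) (b := 4) (Or.inl rfl) (Or.inl rfl)).1
  have h2 := (memA (Ne.symm hj) (a := 4) (b := -4) (Or.inl rfl) (Or.inr rfl)).1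
  have h3 := add_mem h1 h2
  have h4 : (Pi.single i 4 + Pi.single j 4 + (Pi.single i 4 + Pi.single j (-4)) : GolayPt → ℤ) = Pi.single i 8 := by
    rw [show (-4 : ℤ) = -4 from rfl, Pi.single_neg, show (8 : ℤ) = 4 + 4 by norm_num, Pi.single_add]
    abel
  rwa [h4] at h3

/-- eight at one point -/
def O8 (i : GolayPt) : leechLattice := ⟨Pi.single i 8, single8_mem i⟩

theorem O8_coe (i : GolayPt) : (O8 i : GolayPt → ℤ) = Pi.single i 8 := rfl

theorem dt_O8 (x : leechLattice) (i : GolayPt) : Dt (O8 i) x = 8 * (x : GolayPt → ℤ) i := by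
  rw [dt_comm, mul_comm]
  exact dotInt_single _ i 8

theorem nm_O8 (i : GolayPt) : Nm (O8 i) = 64 := by
  show sqNorm (Pi.single i 8) = 64
  rw [sqNorm_single]; norm_num

theorem eight_smul (x : leechLattice) : (8 : ℤ) • x = ∑ i, ((x : GolayPt → ℤ) i) • O8 i := by
  apply Subtype.ext
  funext j
  rw [AddSubgroup.coe_zsmul, Pi.smul_apply, smul_eq_mul, AddSubmonoidClass.coe_finsetSum, Finset.sum_apply]
  simp only [AddSubgroup.coe_zsmul, O8_coe, Pi.smul_apply, smul_eq_mul, Pi.single_apply, mul_ite, mul_zero]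
  rw [Finset.sum_ite_eq, if_pos (Finset.mem_univ j)]
  ring

theorem smul_zsmul'' (g : Co0) (n : ℤ) (x : leechLattice) : g • (n • x) = n • (g • x) :=
  map_zsmul (DistribSMul.toAddMonoidHom leechLattice g) n x

theorem smul_eight (g : Co0) (x : leechLattice) : (8 : ℤ) • (g • x) = ∑ i, ((x : GolayPt → ℤ) i) • (g • O8 i) := by
  rw [← smul_zsmul'', eight_smul, Finset.smul_sum]
  apply Finset.sum_congr rfl
  intro i _
  exact smul_zsmul'' g _ _

theorem eight_inj {x y : leechLattice} (h : (8 : ℤ) • x = (8 : ℤ) • y) : x = y := by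
  apply Subtype.ext
  funext j
  have h1 : (((8 : ℤ) • x : leechLattice) : GolayPt → ℤ) j = (((8 : ℤ) • y : leechLattice) : GolayPt → ℤ) j := by rw [h]
  rw [AddSubgroup.coe_zsmul, AddSubgroup.coe_zsmul, Pi.smul_apply, Pi.smul_apply, smul_eq_mul, smul_eq_mul] at h1
  omega

theorem ext8 {g h : Co0} (H : ∀ i, g • O8 i = h • O8 i) : g = h := by
  apply Subtype.ext
  apply Equiv.ext
  intro x
  apply eight_inj
  show (8 : ℤ) • (g • x) = (8 : ℤ) • (h • x)
  rw [smul_eight, smul_eight]
  apply Finset.sum_congr rfl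
  intro i _
  rw [H]

instance finite_Co0 : Finite Co0 := by
  let f : Co0 → (GolayPt → {x : leechLattice | Nm x = 64}) := fun g i => ⟨g • O8 i, by
    show Nm _ = 64
    rw [nm_smul, nm_O8]⟩
  have hf : Function.Injective f := by
    intro g h e
    apply ext8
    intro i
    exact congrArg Subtype.val (congrFun e i)
  have : Finite {x : leechLattice | Nm x = 64} := (finite_nm 64).to_subtype
  exact Finite.of_injective f hf

/-! ### the standard cross -/

/-- the standard cross inside the lattice -/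
def SC : Set leechLattice := {v | (v : GolayPt → ℤ) ∈ stdCross}

theorem mem_SC {v : leechLattice} : v ∈ SC ↔ ∃ i, v = O8 i ∨ v = -O8 i := by
  constructor
  · rintro ⟨i, s, hs, h⟩
    refine ⟨i, ?_⟩
    rcases hs with rfl | rfl
    · left; exact Subtype.ext h
    · right
      apply Subtype.ext
      rw [h]
      show Pi.single i (-8) = -(Pi.single i 8 : GolayPt → ℤ)
      rw [Pi.single_neg]
  · rintro ⟨i, rfl | rfl⟩
    · exact ⟨i, 8, Or.inl rfl, rfl⟩
    · refine ⟨i, -8, Or.inr rfl, ?_⟩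
      show -(Pi.single i 8 : GolayPt → ℤ) = Pi.single i (-8)
      rw [Pi.single_neg]

theorem ncard_stdCross : stdCross.ncard = 48 := by
  have h : stdCross = (fun p : GolayPt × ℤ => (Pi.single p.1 p.2 : GolayPt → ℤ)) '' ((Finset.univ ×ˢ {8, -8} : Finset (GolayPt × ℤ)) : Set (GolayPt × ℤ)) := by
    ext y
    constructor
    · rintro ⟨i, s, hs, rfl⟩
      exact ⟨(i, s), by simpa using hs, rfl⟩
    · rintro ⟨⟨i, s⟩, hs, rfl⟩
      exact ⟨i, s, by simpa using hs, rfl⟩
  rw [h, Set.InjOn.ncard_image, Set.ncard_coe_finset]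
  · rfl
  · rintro ⟨i, s⟩ hs ⟨j, t⟩ ht e
    have hs' : s = 8 ∨ s = -8 := by simpa using hs
    have h0 : s ≠ 0 := by omega
    have e1 := congrFun e i
    simp only [Pi.single_eq_same] at e1
    by_cases hij : j = i
    · subst hij
      rw [Pi.single_eq_same] at e1
      rw [e1]
    · rw [Pi.single_eq_of_ne (Ne.symm hij)] at e1
      exact absurd e1 h0

theorem coe_image_SC : (fun v : leechLattice => (v : GolayPt → ℤ)) '' SC = stdCross := by
  ext y
  constructor
  · rintro ⟨v, hv, rfl⟩; exact hv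
  · intro hy
    have hy' := hy
    obtain ⟨i, s, hs, rfl⟩ := hy
    have hm : (Pi.single i s : GolayPt → ℤ) ∈ leechLattice := by
      rcases hs with rfl | rfl
      · exact single8_mem i
      · rw [Pi.single_neg]; exact neg_mem (single8_mem i)
    exact ⟨⟨_, hm⟩, hy', rfl⟩

theorem ncard_SC : SC.ncard = 48 := by
  rw [← ncard_stdCross, ← coe_image_SC, Set.ncard_image_of_injective _ Subtype.val_injective]

theorem finite_SC : SC.Finite := Set.finite_of_ncard_ne_zero (by rw [ncard_SC]; norm_num)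

/-- minimal vectors with a coordinate four -/
theorem coord4 {x : GolayPt → ℤ} (hx : x ∈ leechLattice) (hn : sqNorm x = 32) {i : GolayPt} (h : x i = 4) :
    ∃ j, j ≠ i ∧ ∃ b : ℤ, (b = 4 ∨ b = -4) ∧ x = Pi.single i 4 + Pi.single j b := by
  have h1 := mem_minV.2 ⟨hx, hn⟩
  rw [minV, List.mem_append, List.mem_append] at h1
  rcases h1 with h1 | h1 | h1
  · obtain ⟨p, q, hpq, a, b, ha, hb, rfl⟩ := mem_famA.1 h1
    rw [Pi.add_apply, Pi.single_apply, Pi.single_apply] at h
    by_cases hp : i = p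
    · subst hp
      have hq : i ≠ q := hpq
      rw [if_pos rfl, if_neg hq, add_zero] at h
      subst h
      exact ⟨q, Ne.symm hpq, b, hb, rfl⟩
    · by_cases hq : i = q
      · subst hq
        rw [if_neg hp, if_pos rfl, zero_add] at h
        subst h
        exact ⟨p, hpq, a, ha, add_comm _ _⟩
      · rw [if_neg hp, if_neg hq] at h
        norm_num at h
  · obtain ⟨o, ho, h2, h3, _⟩ := mem_famB.1 h1
    by_cases hi : i ∈ o
    · have := h3 i hi
      omega
    · have := h2 i hi
      omega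
  · have := (famC_spec h1).1.1 i
    omega

/-- congruence modulo twice the lattice, same norm -/
def crossL (x : leechLattice) : Set leechLattice := {y | Nm y = Nm x ∧ ∃ z : leechLattice, x - y = 2 • z}

theorem cross_eq (x : leechLattice) : cross (x : GolayPt → ℤ) = (fun v : leechLattice => (v : GolayPt → ℤ)) '' crossL x := by
  ext y
  constructor
  · rintro ⟨h1, h2, z, hz, h3⟩
    exact ⟨⟨y, h1⟩, ⟨h2, ⟨z, hz⟩, Subtype.ext h3⟩, rfl⟩
  · rintro ⟨y, ⟨h2, z, h3⟩, rfl⟩
    refine ⟨y.2, h2, z, z.2, ?_⟩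
    have := congrArg (fun v : leechLattice => (v : GolayPt → ℤ)) h3
    exact this

theorem ncard_cross (x : leechLattice) : (cross (x : GolayPt → ℤ)).ncard = (crossL x).ncard := by
  rw [cross_eq, Set.ncard_image_of_injective _ Subtype.val_injective]

theorem smul_nsmul'' (g : Co0) (n : ℕ) (x : leechLattice) : g • (n • x) = n • (g • x) :=
  map_nsmul (DistribSMul.toAddMonoidHom leechLattice g) n x

theorem mem_crossL_smul (g : Co0) (x y : leechLattice) : y ∈ crossL x → g • y ∈ crossL (g • x) := by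
  rintro ⟨h1, z, h2⟩
  refine ⟨by rw [nm_smul, nm_smul]; exact h1, g • z, ?_⟩
  rw [← smul_sub'', h2, smul_nsmul'']

theorem crossL_smul (g : Co0) (x : leechLattice) : crossL (g • x) = (g • ·) '' crossL x := by
  ext y
  constructor
  · intro h
    refine ⟨g⁻¹ • y, ?_, smul_inv_smul g y⟩
    have := mem_crossL_smul g⁻¹ _ _ h
    rwa [inv_smul_smul] at this
  · rintro ⟨z, hz, rfl⟩
    exact mem_crossL_smul g x z hz

theorem nm_two (z : leechLattice) : Nm (2 • z) = 4 * Nm z := by
  rw [two_nsmul, nm_add, dt_self]; ring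

theorem crossL_O8 (i : GolayPt) : crossL (O8 i) = SC := by
  ext y
  constructor
  · rintro ⟨h1, z, h2⟩
    rw [nm_O8] at h1
    rw [mem_SC]
    by_cases hz : z = 0
    · rw [hz, smul_zero] at h2
      exact ⟨i, Or.inl (sub_eq_zero.1 h2).symm⟩
    by_cases hz' : O8 i - z = 0
    · refine ⟨i, Or.inr ?_⟩
      have h3 : z = O8 i := (sub_eq_zero.1 hz').symm
      rw [h3, two_nsmul] at h2
      have h4 : y = O8 i - (O8 i + O8 i) := by rw [← h2]; abel
      rw [h4]; abel
    have a1 := nm_min hz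
    have a2 := nm_min hz'
    have a3 : Nm (O8 i - y) = 4 * Nm z := by rw [h2, nm_two]
    have a4 : Nm (O8 i + y) = 4 * Nm (O8 i - z) := by
      rw [← nm_two]
      congr 1
      have : y = O8 i - 2 • z := by rw [← h2]; abel
      rw [this, two_nsmul, two_nsmul]; abel
    rw [nm_sub, nm_O8, h1] at a3
    rw [nm_add, nm_O8, h1] at a4
    have a5 : Nm (O8 i - z) = 64 - 2 * Dt (O8 i) z + Nm z := by rw [nm_sub, nm_O8]
    have a6 : Nm z = 32 := by omega
    have a7 : Dt (O8 i) z = 32 := by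
      have h5 : Dt (O8 i) y = 0 := by omega
      have h6 : Nm (O8 i - z) = 32 := by omega
      omega
    rw [dt_O8] at a7
    obtain ⟨j, hj, b, hb, h7⟩ := coord4 z.2 a6 (i := i) (by omega)
    refine ⟨j, ?_⟩
    have h8 : (y : GolayPt → ℤ) = -(2 • Pi.single j b) := by
      have h9 : y = O8 i - 2 • z := by rw [← h2]; abel
      rw [h9]
      show (Pi.single i 8 : GolayPt → ℤ) - 2 • (z : GolayPt → ℤ) = _
      rw [h7, smul_add, two_nsmul (Pi.single i 4 : GolayPt → ℤ), ← Pi.single_add]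
      norm_num
    rcases hb with rfl | rfl
    · right
      apply Subtype.ext
      rw [h8, two_nsmul, ← Pi.single_add]
      rfl
    · left
      apply Subtype.ext
      rw [h8, two_nsmul, ← Pi.single_add, ← Pi.single_neg]
      rfl
  · intro hy
    obtain ⟨j, hj⟩ := mem_SC.1 hy
    have hn : Nm y = 64 := by
      rcases hj with rfl | rfl
      · exact nm_O8 j
      · rw [nm_neg, nm_O8]
    refine ⟨by rw [hn, nm_O8], ?_⟩
    have two4 : ∀ i : GolayPt, (Pi.single i 8 : GolayPt → ℤ) = 2 • Pi.single i 4 := by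
      intro i; rw [two_nsmul, ← Pi.single_add]; rfl
    by_cases hij : i = j
    · subst hij
      rcases hj with rfl | rfl
      · exact ⟨0, by rw [sub_self, smul_zero]⟩
      · exact ⟨O8 i, by rw [two_nsmul]; abel⟩
    · rcases hj with rfl | rfl
      · refine ⟨⟨_, (memA hij (a := 4) (b := -4) (Or.inl rfl) (Or.inr rfl)).1⟩, ?_⟩
        apply Subtype.ext
        show (Pi.single i 8 : GolayPt → ℤ) - Pi.single j 8 = 2 • (Pi.single i 4 + Pi.single j (-4))
        rw [two4 i, two4 j, smul_add, Pi.single_neg, smul_neg, sub_eq_add_neg]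
      · refine ⟨⟨_, (memA hij (a := 4) (b := 4) (Or.inl rfl) (Or.inl rfl)).1⟩, ?_⟩
        apply Subtype.ext
        show (Pi.single i 8 : GolayPt → ℤ) - -(Pi.single j 8 : GolayPt → ℤ) = 2 • (Pi.single i 4 + Pi.single j 4)
        rw [two4 i, two4 j, smul_add, sub_neg_eq_add]

theorem ncard_crossL (x : leechLattice) (hx : Nm x = 64) : (crossL x).ncard = 48 := by
  obtain ⟨g, hg⟩ := trans64 (O8 none) x (nm_O8 none) hx
  rw [← hg, crossL_smul, Set.ncard_image_of_injective _ (MulAction.injective g), crossL_O8, ncard_SC]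

end Cfsg.Agent.H7.Co3
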