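import Mathlib
import Cfsg.Agent.H7_Co3

set_option autoImplicit false

/-!
The monomial group and the orders of `Co0`, `Co2`, `Co3`, `McL` and `HS`.
-/

namespace Cfsg.Agent.H7.Co4

open Cfsg Cfsg.Agent.H7.Golay Cfsg.Agent.H7.Oct Cfsg.Agent.H7.L1 Cfsg.Agent.H7.L2 Cfsg.Agent.H7.L3 Cfsg.Agent.H7.L4 Cfsg.Agent.H7.L5
  Cfsg.Agent.H7.L6 Cfsg.Agent.H7.L7 Cfsg.Agent.H7.L8 Cfsg.Agent.H7.L9 Cfsg.Agent.H7.L10 Cfsg.Agent.H7.L11 Cfsg.Agent.H7.LV
  Cfsg.Agent.H7.LV8 Cfsg.Agent.H7.Co Cfsg.Agent.H7.Co3 Cfsg.Agent.H7.M24 Cfsg.Agent.H7.M24b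
open scoped Pointwise

/-- preserving the standard cross -/
def PresSC (g : Co0) : Prop := ∀ v : leechLattice, (v : GolayPt → ℤ) ∈ stdCross →
  ((g • v : leechLattice) : GolayPt → ℤ) ∈ stdCross

theorem signedPerm_add (σ : Equiv.Perm GolayPt) (c : Finset GolayPt) (x y : GolayPt → ℤ) :
    signedPerm σ c (x + y) = signedPerm σ c x + signedPerm σ c y := by
  funext i
  simp only [signedPerm, Pi.add_apply]
  split <;> ring

theorem signedPerm_norm (σ : Equiv.Perm GolayPt) (c : Finset GolayPt) (x : GolayPt → ℤ) :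
    sqNorm (signedPerm σ c x) = sqNorm x := by
  have h : ∀ i, signedPerm σ c x i ^ 2 = x (σ.symm i) ^ 2 := by
    intro i
    simp only [signedPerm]
    split <;> ring
  simp only [sqNorm, h]
  exact Equiv.sum_comp σ.symm fun i => x i ^ 2

theorem signedPerm_mem {σ : Equiv.Perm GolayPt} (hσ : σ ∈ M24) {c : Finset GolayPt} (hc : c ∈ Cw) {x : GolayPt → ℤ}
    (hx : x ∈ leechLattice) : signedPerm σ c x ∈ leechLattice := by
  have h1 := perm_mem (inv_mem hσ) hx
  exact sign_mem hc h1

theorem exists_mono {σ : Equiv.Perm GolayPt} (hσ : σ ∈ M24) {c : Finset GolayPt} (hc : c ∈ Cw) :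
    ∃ g : Co0, ∀ x : leechLattice, ((g • x : leechLattice) : GolayPt → ℤ) = signedPerm σ c x :=
  exists_co0 (signedPerm σ c) (signedPerm_add σ c) (signedPerm_norm σ c) fun _ hx => signedPerm_mem hσ hc hx

theorem signedPerm_single (σ : Equiv.Perm GolayPt) (c : Finset GolayPt) (i : GolayPt) (a : ℤ) :
    signedPerm σ c (Pi.single i a) = Pi.single (σ i) (if σ i ∈ c then -a else a) := by
  funext j
  simp only [signedPerm]
  by_cases h : j = σ i
  · subst h
    rw [Equiv.symm_apply_apply, Pi.single_eq_same, Pi.single_eq_same]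
  · have h' : σ.symm j ≠ i := fun e => h (by rw [← e, Equiv.apply_symm_apply])
    rw [Pi.single_eq_of_ne h', Pi.single_eq_of_ne h]
    simp

/-- cross preserving elements are monomial -/
theorem mono_of_pres {g : Co0} (hg : PresSC g) : ∃ σ ∈ M24, ∃ c ∈ Cw, ∀ v : leechLattice,
    ((g • v : leechLattice) : GolayPt → ℤ) = signedPerm σ c v := by
  have h1 : ∀ i, ∃ j : GolayPt, ∃ s : ℤ, (s = 8 ∨ s = -8) ∧ ((g • O8 i : leechLattice) : GolayPt → ℤ) = Pi.single j s :=
    fun i => hg (O8 i) ⟨i, 8, Or.inl rfl, rfl⟩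
  choose τ s hs hτ using h1
  have hinj : Function.Injective τ := by
    intro i j hij
    by_contra hne
    have h2 : Dt (g • O8 i) (g • O8 j) = 0 := by
      rw [dt_smul, dt_O8, O8_coe, Pi.single_eq_of_ne hne]; norm_num
    have h3 : Dt (g • O8 i) (g • O8 j) = s i * s j := by
      show dotInt ((g • O8 i : leechLattice) : GolayPt → ℤ) ((g • O8 j : leechLattice) : GolayPt → ℤ) = _
      rw [hτ, hτ, hij]
      rw [dotInt_single, Pi.single_eq_same]
    rw [h2] at h3
    rcases hs i with h | h <;> rcases hs j with h' | h' <;> rw [h, h'] at h3 <;> norm_num at h3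
  obtain ⟨σ, hσ⟩ : ∃ σ : Equiv.Perm GolayPt, ∀ i, σ i = τ i :=
    ⟨Equiv.ofBijective τ (Finite.injective_iff_bijective.1 hinj), fun i => rfl⟩
  obtain ⟨c, hc⟩ : ∃ c : Finset GolayPt, ∀ i, σ i ∈ c ↔ s i = -8 :=
    ⟨Finset.univ.filter fun j => s (σ.symm j) = -8, fun i => by simp⟩
  have key : ∀ v : leechLattice, ((g • v : leechLattice) : GolayPt → ℤ) = signedPerm σ c v := by
    intro v
    have h2 := congrArg (fun v : leechLattice => (v : GolayPt → ℤ)) (smul_eight g v)
    funext j
    have h3 := congrFun h2 j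
    simp only [AddSubgroup.coe_zsmul, Pi.smul_apply, smul_eq_mul] at h3
    rw [AddSubmonoidClass.coe_finsetSum, Finset.sum_apply] at h3
    simp only [AddSubgroup.coe_zsmul, hτ, Pi.smul_apply, smul_eq_mul, ← hσ] at h3
    have h4 : ∀ i, (v : GolayPt → ℤ) i * (Pi.single (σ i) (s i) : GolayPt → ℤ) j =
        if i = σ.symm j then (v : GolayPt → ℤ) i * s i else 0 := by
      intro i
      by_cases h : i = σ.symm j
      · subst h
        rw [Equiv.apply_symm_apply, Pi.single_eq_same, if_pos rfl]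
      · have h' : j ≠ σ i := fun e => h (by rw [e, Equiv.symm_apply_apply])
        rw [Pi.single_eq_of_ne h', if_neg h, mul_zero]
    rw [Finset.sum_congr rfl fun i _ => h4 i, Finset.sum_ite_eq', if_pos (Finset.mem_univ _)] at h3
    simp only [signedPerm]
    have h5 := hc (σ.symm j)
    rw [Equiv.apply_symm_apply] at h5
    rcases hs (σ.symm j) with h | h
    · rw [if_neg (by rw [h5, h]; norm_num)]
      rw [h] at h3
      omega
    · rw [if_pos (h5.2 h)]
      rw [h] at h3
      omega
  refine ⟨σ, ?_, c, ?_, key⟩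
  · -- the permutation preserves octads
    rw [M24_eq_aut_octads, setSystemAut, MulAction.mem_stabilizer_set' (Set.toFinite _)]
    intro o ho
    obtain ⟨hv, hvn⟩ := memB ho (f := fun _ => 2) (fun p _ => Or.inl rfl) (by
      rw [Finset.filter_true_of_mem (fun _ _ => rfl), ho.2])
    have h2 : signedPerm σ c (vB o fun _ => 2) ∈ leechLattice := by
      rw [← key ⟨_, hv⟩]; exact (g • (⟨_, hv⟩ : leechLattice)).2
    have h3 : ∀ i, signedPerm σ c (vB o fun _ => 2) i = 0 ∨ signedPerm σ c (vB o fun _ => 2) i = 2 ∨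
        signedPerm σ c (vB o fun _ => 2) i = -2 := by
      intro i
      simp only [signedPerm, vB]
      split <;> split <;> simp
    have h4 : cls (signedPerm σ c (vB o fun _ => 2)) 2 = σ • o := by
      ext i
      rw [mem_cls]
      have h5 : i ∈ σ • o ↔ σ.symm i ∈ o := by
        rw [Finset.mem_smul_finset]
        constructor
        · rintro ⟨y, hy, rfl⟩
          show σ.symm (σ y) ∈ o
          rwa [Equiv.symm_apply_apply]
        · intro h
          exact ⟨_, h, σ.apply_symm_apply i⟩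
      rw [h5]
      simp only [signedPerm, vB]
      by_cases h : σ.symm i ∈ o
      · simp only [if_pos h]
        split <;> simp [h]
      · simp only [if_neg h]
        split <;> simp [h]
    rcases mem_leech_iff.1 h2 with h5 | h5
    · refine ⟨h4 ▸ h5.2.2, ?_⟩
      rw [Finset.card_smul_finset]; exact ho.2
    · exfalso
      have h6 := h5.1 none
      rcases h3 none with h | h | h <;> rw [h] at h6 <;> norm_num at h6
  · -- the sign changes
    have hv : v0 ∈ leechLattice := mem_leech_iff.2 (Or.inr v0_odd)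
    have h2 : signedPerm σ c v0 ∈ leechLattice := by
      rw [← key ⟨_, hv⟩]; exact (g • (⟨_, hv⟩ : leechLattice)).2
    have h0 : ∀ i, v0 i = 1 ∨ v0 i = -3 := by
      intro i
      simp only [v0]
      split <;> simp
    have h4 : cls (signedPerm σ c v0) 1 = cᶜ := by
      ext i
      rw [mem_cls, Finset.mem_compl]
      simp only [signedPerm]
      by_cases h : i ∈ c
      · rw [if_pos h]
        rcases h0 (σ.symm i) with h' | h' <;> rw [h'] <;> simp [h]
      · rw [if_neg h]
        rcases h0 (σ.symm i) with h' | h' <;> rw [h'] <;> simp [h]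
    rcases mem_leech_iff.1 h2 with h5 | h5
    · exfalso
      have h6 := h5.1 none
      simp only [signedPerm] at h6
      split at h6 <;> rcases h0 (σ.symm none) with h | h <;> rw [h] at h6 <;> norm_num at h6
    · have h6 := compl_mem_supports h5.2.2
      rw [h4, compl_compl] at h6
      exact h6

theorem pres_of_mono {g : Co0} {σ : Equiv.Perm GolayPt} {c : Finset GolayPt}
    (h : ∀ v : leechLattice, ((g • v : leechLattice) : GolayPt → ℤ) = signedPerm σ c v) : PresSC g := by
  intro v hv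
  obtain ⟨i, s, hs, h1⟩ := hv
  rw [h, h1, signedPerm_single]
  refine ⟨σ i, _, ?_, rfl⟩
  split <;> omega

theorem signedPerm_inj {σ τ : Equiv.Perm GolayPt} {c d : Finset GolayPt}
    (h : ∀ v : leechLattice, signedPerm σ c v = signedPerm τ d v) : σ = τ ∧ c = d := by
  have h1 : ∀ i, σ i = τ i ∧ (σ i ∈ c ↔ τ i ∈ d) := by
    intro i
    have h2 := h (O8 i)
    rw [O8_coe, signedPerm_single, signedPerm_single] at h2
    have h3 : σ i = τ i := by
      by_contra hne
      have h4 := congrFun h2 (σ i)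
      rw [Pi.single_eq_same, Pi.single_eq_of_ne hne] at h4
      split at h4 <;> norm_num at h4
    refine ⟨h3, ?_⟩
    have h4 := congrFun h2 (σ i)
    rw [Pi.single_eq_same] at h4
    rw [← h3, Pi.single_eq_same] at h4
    rw [← h3]
    by_cases h5 : σ i ∈ c <;> by_cases h6 : σ i ∈ d
    · exact ⟨fun _ => h6, fun _ => h5⟩
    · rw [if_pos h5, if_neg h6] at h4; norm_num at h4
    · rw [if_neg h5, if_pos h6] at h4; norm_num at h4
    · exact ⟨fun h => absurd h h5, fun h => absurd h h6⟩
  have h2 : σ = τ := Equiv.ext fun i => (h1 i).1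
  refine ⟨h2, ?_⟩
  ext j
  have := (h1 (σ.symm j)).2
  rw [Equiv.apply_symm_apply, ← h2, Equiv.apply_symm_apply] at this
  exact this

/-- the order of the monomial group -/
theorem card_pres : Nat.card {g : Co0 // PresSC g} = 4096 * 244823040 := by
  choose f hf using fun p : M24 × (Cw : Set (Finset GolayPt)) => exists_mono p.1.2 p.2.2
  have hbij : Function.Bijective (fun p : M24 × (Cw : Set (Finset GolayPt)) => (⟨f p, pres_of_mono (hf p)⟩ : {g : Co0 // PresSC g})) := by
    constructor
    · intro p q h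
      have h1 : f p = f q := congrArg Subtype.val h
      have h2 := signedPerm_inj (σ := p.1) (τ := q.1) (c := p.2) (d := q.2) (fun v => by rw [← hf p v, ← hf q v, h1])
      exact Prod.ext (Subtype.ext h2.1) (Subtype.ext h2.2)
    · rintro ⟨g, hg⟩
      obtain ⟨σ, hσ, c, hc, h⟩ := mono_of_pres hg
      refine ⟨⟨⟨σ, hσ⟩, ⟨c, hc⟩⟩, Subtype.ext ?_⟩
      apply ext8
      intro i
      apply Subtype.ext
      show ((f ⟨⟨σ, hσ⟩, ⟨c, hc⟩⟩ • O8 i : leechLattice) : GolayPt → ℤ) = _
      rw [hf, h]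
  rw [← Nat.card_congr (Equiv.ofBijective _ hbij), Nat.card_prod, card_M24]
  have h1 : Nat.card (Cw : Set (Finset GolayPt)) = 4096 := by
    rw [← ncard_Cw]; rfl
  rw [h1]

/-- the stabiliser of the standard cross -/
def NN : Subgroup Co0 := MulAction.stabilizer Co0 SC

theorem mem_NN {g : Co0} : g ∈ NN ↔ PresSC g := by
  rw [NN, MulAction.mem_stabilizer_set' finite_SC]
  exact ⟨fun h v hv => h hv, fun h v hv => h v hv⟩

theorem card_NN : Nat.card NN = 4096 * 244823040 := by
  rw [← card_pres]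
  exact Nat.card_congr (Equiv.subtypeEquivRight fun g => mem_NN)

end Cfsg.Agent.H7.Co4
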