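import Mathlib
import Cfsg.Agent.H7_Co4

set_option autoImplicit false

/-!
The orders of `Co0` and of the stabilisers of short vectors.
-/

namespace Cfsg.Agent.H7.Co5

open Cfsg Cfsg.Agent.H7.Golay Cfsg.Agent.H7.Oct Cfsg.Agent.H7.L1 Cfsg.Agent.H7.L2 Cfsg.Agent.H7.L3 Cfsg.Agent.H7.L4 Cfsg.Agent.H7.L5
  Cfsg.Agent.H7.L6 Cfsg.Agent.H7.L7 Cfsg.Agent.H7.L8 Cfsg.Agent.H7.L9 Cfsg.Agent.H7.L10 Cfsg.Agent.H7.L11 Cfsg.Agent.H7.LV
  Cfsg.Agent.H7.LV8 Cfsg.Agent.H7.Co Cfsg.Agent.H7.Co3 Cfsg.Agent.H7.Co4 Cfsg.Agent.H7.M24 Cfsg.Agent.H7.M24b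
open scoped Pointwise

theorem orbit64 (x : leechLattice) (hx : Nm x = 64) : MulAction.orbit Co0 x = {y | Nm y = 64} := by
  ext y
  rw [MulAction.mem_orbit_iff]
  constructor
  · rintro ⟨g, rfl⟩
    show Nm (g • x) = 64
    rw [nm_smul, hx]
  · intro hy
    exact trans64 x y hx hy

theorem orbit32 (x : leechLattice) (hx : Nm x = 32) : MulAction.orbit Co0 x = {y | Nm y = 32} := by
  ext y
  rw [MulAction.mem_orbit_iff]
  constructor
  · rintro ⟨g, rfl⟩
    show Nm (g • x) = 32
    rw [nm_smul, hx]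
  · intro hy
    exact trans32 x y hx hy

theorem orbit48 (x : leechLattice) (hx : Nm x = 48) : MulAction.orbit Co0 x = {y | Nm y = 48} := by
  ext y
  rw [MulAction.mem_orbit_iff]
  constructor
  · rintro ⟨g, rfl⟩
    show Nm (g • x) = 48
    rw [nm_smul, hx]
  · intro hy
    exact trans48 x y hx hy

/-- the stabiliser of a vector of norm 64 preserves its cross -/
theorem stab_le_NN (i : GolayPt) : MulAction.stabilizer Co0 (O8 i) ≤ NN := by
  intro g hg
  rw [NN, MulAction.mem_stabilizer_iff, ← crossL_O8 i]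
  have h := crossL_smul g (O8 i)
  rw [MulAction.mem_stabilizer_iff.1 hg] at h
  exact h.symm

theorem orbit_NN (i : GolayPt) : MulAction.orbit NN (O8 i) = SC := by
  ext y
  rw [MulAction.mem_orbit_iff]
  constructor
  · rintro ⟨g, rfl⟩
    exact mem_NN.1 g.2 (O8 i) ⟨i, 8, Or.inl rfl, rfl⟩
  · intro hy
    obtain ⟨j, hj⟩ := mem_SC.1 hy
    obtain ⟨σ, hσ, h1⟩ := ktrans 1 (by norm_num) (fun _ => i) (fun _ => j) (fun _ _ _ => Subsingleton.elim _ _)
      (fun _ _ _ => Subsingleton.elim _ _)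
    have h2 := h1 0
    rcases hj with rfl | rfl
    · obtain ⟨g, hg⟩ := exists_mono hσ (c := ∅) Spor.empty_mem_supports_golayCode
      refine ⟨⟨g, mem_NN.2 (pres_of_mono hg)⟩, Subtype.ext ?_⟩
      show ((g • O8 i : leechLattice) : GolayPt → ℤ) = _
      rw [hg, O8_coe, signedPerm_single, if_neg (Finset.notMem_empty _)]
      change σ i = j at h2
      rw [h2]; rfl
    · obtain ⟨g, hg⟩ := exists_mono hσ (c := Finset.univ) Spor.univ_mem_supports_golayCode
      refine ⟨⟨g, mem_NN.2 (pres_of_mono hg)⟩, Subtype.ext ?_⟩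
      show ((g • O8 i : leechLattice) : GolayPt → ℤ) = -(Pi.single j 8 : GolayPt → ℤ)
      rw [hg, O8_coe, signedPerm_single, if_pos (Finset.mem_univ _), ← Pi.single_neg]
      change σ i = j at h2
      rw [h2]

theorem index_NN : NN.index = 8292375 := by
  have h1 : (MulAction.stabilizer Co0 (O8 none)).index = 398034000 := by
    rw [MulAction.index_stabilizer, orbit64 _ (nm_O8 none), cnt64]
  have h2 : (MulAction.stabilizer Co0 (O8 none)).relIndex NN = 48 := by
    rw [Subgroup.relIndex]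
    have h3 : (MulAction.stabilizer Co0 (O8 none)).subgroupOf NN = MulAction.stabilizer NN (O8 none) := by
      ext g
      rw [Subgroup.mem_subgroupOf, MulAction.mem_stabilizer_iff, MulAction.mem_stabilizer_iff]
      rfl
    rw [h3, MulAction.index_stabilizer, orbit_NN, ncard_SC]
  have h3 := Subgroup.relIndex_mul_index (stab_le_NN none)
  rw [h1, h2] at h3
  omega

theorem card_Co0 : Nat.card Co0 = 8315553613086720000 := by
  rw [← Subgroup.index_mul_card NN, index_NN, card_NN]

theorem card_stab32 (x : leechLattice) (hx : Nm x = 32) : Nat.card (MulAction.stabilizer Co0 x) = 42305421312000 := by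
  have h := Subgroup.index_mul_card (MulAction.stabilizer Co0 x)
  rw [MulAction.index_stabilizer, orbit32 x hx, cnt32, card_Co0] at h
  omega

theorem card_stab48 (x : leechLattice) (hx : Nm x = 48) : Nat.card (MulAction.stabilizer Co0 x) = 495766656000 := by
  have h := Subgroup.index_mul_card (MulAction.stabilizer Co0 x)
  rw [MulAction.index_stabilizer, orbit48 x hx, cnt48, card_Co0] at h
  omega

theorem card_stab64 (x : leechLattice) (hx : Nm x = 64) : Nat.card (MulAction.stabilizer Co0 x) = 20891566080 := by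
  have h := Subgroup.index_mul_card (MulAction.stabilizer Co0 x)
  rw [MulAction.index_stabilizer, orbit64 x hx, cnt64, card_Co0] at h
  omega

end Cfsg.Agent.H7.Co5
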