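import Mathlib
import Cfsg.Agent.H7_Co5
import Cfsg.Agent.H7_Co2

set_option autoImplicit false

/-!
The centre of `Co0`.
-/

namespace Cfsg.Agent.H7.Co6

open Cfsg Cfsg.Agent.H7.Golay Cfsg.Agent.H7.Oct Cfsg.Agent.H7.L1 Cfsg.Agent.H7.L2 Cfsg.Agent.H7.L3 Cfsg.Agent.H7.L4 Cfsg.Agent.H7.L5
  Cfsg.Agent.H7.L6 Cfsg.Agent.H7.L7 Cfsg.Agent.H7.L8 Cfsg.Agent.H7.L9 Cfsg.Agent.H7.L10 Cfsg.Agent.H7.L11 Cfsg.Agent.H7.LV
  Cfsg.Agent.H7.LV8 Cfsg.Agent.H7.Co Cfsg.Agent.H7.Co3 Cfsg.Agent.H7.Co4 Cfsg.Agent.H7.Co5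
open scoped Pointwise

/-- the element minus one -/
theorem exists_neg : ∃ g : Co0, ∀ x : leechLattice, g • x = -x := by
  obtain ⟨g, hg⟩ := exists_co0 (fun x => -x) (fun x y => neg_add x y) (fun x => sqNorm_neg x) (fun x hx => neg_mem hx)
  exact ⟨g, fun x => Subtype.ext (hg x)⟩

/-- minus one -/
noncomputable def m1 : Co0 := exists_neg.choose

theorem m1_smul (x : leechLattice) : m1 • x = -x := exists_neg.choose_spec x

theorem ext32 {g h : Co0} (H : ∀ x : leechLattice, Nm x = 32 → g • x = h • x) : g = h := by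
  apply ext8
  intro i
  obtain ⟨j, hj⟩ : ∃ j, j ≠ i := exists_ne i
  have h1 := memA (Ne.symm hj) (a := 4) (b := 4) (Or.inl rfl) (Or.inl rfl)
  have h2 := memA (Ne.symm hj) (a := 4) (b := -4) (Or.inl rfl) (Or.inr rfl)
  have h4 : O8 i = ⟨_, h1.1⟩ + ⟨_, h2.1⟩ := by
    apply Subtype.ext
    show (Pi.single i 8 : GolayPt → ℤ) = Pi.single i 4 + Pi.single j 4 + (Pi.single i 4 + Pi.single j (-4))
    rw [Pi.single_neg, show (8 : ℤ) = 4 + 4 by norm_num, Pi.single_add]
    abel
  rw [h4, smul_add'', smul_add'', H _ h1.2, H _ h2.2]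

theorem m1_ne : m1 ≠ 1 := by
  intro h
  have h1 := m1_smul vU
  rw [h, one_smul] at h1
  have h2 : vU + vU = 0 := by nth_rewrite 1 [h1]; exact neg_add_cancel vU
  have h3 := nm_add vU vU
  have h4 : Nm vU = 32 := vU_norm
  rw [h2, dt_self, h4, nm_zero_iff.2 rfl] at h3
  norm_num at h3

/-- possible inner products of minimal vectors -/
theorem dots32 {x v : leechLattice} (hx : Nm x = 32) (hv : Nm v = 32) :
    x = v ∨ x = -v ∨ Dt x v = 16 ∨ Dt x v = 8 ∨ Dt x v = 0 ∨ Dt x v = -8 ∨ Dt x v = -16 := by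
  by_cases h1 : x = v
  · exact Or.inl h1
  by_cases h2 : x = -v
  · exact Or.inr (Or.inl h2)
  have h3 := nm_min (sub_ne_zero.2 h1)
  have h4 : x + v ≠ 0 := fun h => h2 (eq_neg_of_add_eq_zero_left h)
  have h5 := nm_min h4
  rw [nm_sub, hx, hv] at h3
  rw [nm_add, hx, hv] at h5
  have h6 : Dt x v % 8 = 0 := dot_emod x.2 v.2
  omega

/-- vectors fixed by the stabiliser of a minimal vector -/
theorem fixed_of_stab {v x : leechLattice} (hv : Nm v = 32) (hx : Nm x = 32) (h : ∀ g : Co0, g • v = v → g • x = x) :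
    x = v ∨ x = -v := by
  have key : ∀ (x : leechLattice), Nm x = 32 → (∀ g : Co0, g • v = v → g • x = x) →
      Dt x v ≠ -16 ∧ Dt x v ≠ -8 ∧ Dt x v ≠ 0 := by
    intro x hx h
    refine ⟨fun hd => ?_, fun hd => ?_, fun hd => ?_⟩
    · have h1 : {y : leechLattice | Nm y = 32 ∧ Dt y v = -16} ⊆ {x} := by
        rintro y ⟨h2, h3⟩
        obtain ⟨g, hg1, hg2⟩ := pair_m16 v x v y hv hv hx h2 hd h3
        rw [h g hg1] at hg2
        exact hg2.symm
      have h4 := Set.ncard_le_ncard h1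
      rw [cnt_m16 v hv, Set.ncard_singleton] at h4
      omega
    · have h1 : {y : leechLattice | Nm y = 32 ∧ Dt y v = -8} ⊆ {x} := by
        rintro y ⟨h2, h3⟩
        obtain ⟨g, hg1, hg2⟩ := pair_m8 v x v y hv hv hx h2 hd h3
        rw [h g hg1] at hg2
        exact hg2.symm
      have h4 := Set.ncard_le_ncard h1
      rw [cnt_m8 v hv, Set.ncard_singleton] at h4
      omega
    · have h1 : {y : leechLattice | Nm y = 32 ∧ Dt y v = 0} ⊆ {x} := by
        rintro y ⟨h2, h3⟩
        obtain ⟨g, hg1, hg2⟩ := pair_0 v x v y hv hv hx h2 hd h3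
        rw [h g hg1] at hg2
        exact hg2.symm
      have h4 := Set.ncard_le_ncard h1
      rw [cnt_0 v hv, Set.ncard_singleton] at h4
      omega
  have h1 := key x hx h
  have h2 := key (-x) ((nm_neg x).trans hx) (fun g hg => by rw [smul_neg'', h g hg])
  rw [dt_neg] at h2
  rcases dots32 hx hv with h3 | h3 | h3 | h3 | h3 | h3 | h3
  · exact Or.inl h3
  · exact Or.inr h3
  · exact absurd (by rw [h3]) h2.1
  · exact absurd (by rw [h3]) h2.2.1
  · exact absurd h3 h1.2.2
  · exact absurd h3 h1.2.1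
  · exact absurd h3 h1.1

/-- the centre of `Co0` -/
theorem center_eq : ∀ z : Co0, z ∈ Subgroup.center Co0 ↔ z = 1 ∨ z = m1 := by
  intro z
  constructor
  · intro hz
    rw [Subgroup.mem_center_iff] at hz
    have h1 : z • vU = vU ∨ z • vU = -vU := by
      apply fixed_of_stab vU_norm ((nm_smul z vU).trans vU_norm)
      intro g hg
      rw [← mul_smul, hz g, mul_smul, hg]
    rcases h1 with h1 | h1
    · left
      apply ext32
      intro x hx
      obtain ⟨g, hg⟩ := trans32 vU x vU_norm hx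
      rw [← hg, ← mul_smul, ← hz g, mul_smul, h1, one_smul]
    · right
      apply ext32
      intro x hx
      obtain ⟨g, hg⟩ := trans32 vU x vU_norm hx
      rw [m1_smul, ← hg, ← mul_smul, ← hz g, mul_smul, h1, smul_neg'']
  · rintro (rfl | rfl)
    · exact one_mem _
    · rw [Subgroup.mem_center_iff]
      intro g
      apply ext32
      intro x _
      rw [mul_smul, mul_smul, m1_smul, m1_smul, smul_neg'']

theorem card_center : Nat.card (Subgroup.center Co0) = 2 := by
  have h : ((Subgroup.center Co0 : Subgroup Co0) : Set Co0) = {1, m1} := by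
    ext z
    exact center_eq z
  have h1 : Nat.card (Subgroup.center Co0) = ((Subgroup.center Co0 : Subgroup Co0) : Set Co0).ncard := rfl
  rw [h1, h, Set.ncard_pair m1_ne.symm]

end Cfsg.Agent.H7.Co6
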