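import Mathlib
import Cfsg.Agent.H7_Simple

set_option autoImplicit false

/-!
Simplicity from a self-centralising element of prime order, and a lemma on suborbits.
-/

namespace Cfsg.Agent.H7.Crit

open Subgroup Cfsg.Agent.H7.Simple
open scoped Pointwise

section

variable {G : Type*} [Group G]

/-- a normal subgroup of order prime to `p` has order one modulo `p` -/
theorem card_normal_modEq [Finite G] (p : ℕ) [Fact p.Prime] (t : G) (ht : orderOf t = p)
    (hC : ∀ g : G, g * t = t * g → g ∈ zpowers t) (N : Subgroup G) [hN : N.Normal] (hp : ¬ p ∣ Nat.card N) :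
    Nat.card N ≡ 1 [MOD p] := by
  have hpp : p.Prime := Fact.out
  let φ : zpowers t →* MulAut N := (MulAut.conjNormal : G →* MulAut N).comp (zpowers t).subtype
  let _ : MulAction (zpowers t) N := MulAction.compHom N φ
  have hact : ∀ (z : zpowers t) (n : N), ((z • n : N) : G) = (z : G) * n * (z : G)⁻¹ := fun z n =>
    MulAut.conjNormal_apply (z : G) n
  have hPG : IsPGroup p (zpowers t) := IsPGroup.of_card (n := 1) (by rw [Nat.card_zpowers, ht, pow_one])
  have h1 := hPG.card_modEq_card_fixedPoints (α := N)
  have h2 : MulAction.fixedPoints (zpowers t) N = {1} := by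
    ext n
    rw [MulAction.mem_fixedPoints, Set.mem_singleton_iff]
    constructor
    · intro h
      have h3 := congrArg (fun x : N => (x : G)) (h ⟨t, mem_zpowers t⟩)
      simp only [hact] at h3
      have h4 : (n : G) * t = t * n := by
        have h5 := congrArg (fun x => x * t) h3
        simp only [inv_mul_cancel_right] at h5
        exact h5.symm
      have h5 := hC _ h4
      have h6 : orderOf (n : G) ∣ p := by
        rw [← ht]
        exact orderOf_dvd_of_mem_zpowers h5
      have h7 : orderOf (n : G) ∣ Nat.card N := by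
        rw [Subgroup.orderOf_coe]; exact orderOf_dvd_natCard n
      rcases (Nat.dvd_prime hpp).1 h6 with h8 | h8
      · exact Subtype.ext (orderOf_eq_one_iff.1 h8)
      · rw [h8] at h7
        exact absurd h7 hp
    · rintro rfl z
      apply Subtype.ext
      rw [hact]
      simp
  rw [h2] at h1
  simpa using h1

/-- the normaliser of a self-centralising subgroup of prime order -/
theorem card_normalizer [Finite G] (p : ℕ) [Fact p.Prime] (t : G) (ht : orderOf t = p)
    (hC : ∀ g : G, g * t = t * g → g ∈ zpowers t) :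
    ∃ k, k ∣ p - 1 ∧ Nat.card (normalizer ((zpowers t : Subgroup G) : Set G)) = p * k := by
  have hp : p.Prime := Fact.out
  have hP : Nat.card (zpowers t) = p := by rw [Nat.card_zpowers, ht]
  have hcyc : IsCyclic (zpowers t) := isCyclic_of_prime_card hP
  set C := centralizer ((zpowers t : Subgroup G) : Set G) with hCd
  have hCP : C = zpowers t := by
    apply le_antisymm
    · intro c hc
      exact hC c ((mem_centralizer_iff.1 hc) t (mem_zpowers t)).symm
    · intro c hc
      obtain ⟨a, rfl⟩ := mem_zpowers_iff.1 hc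
      rw [mem_centralizer_iff]
      intro y hy
      obtain ⟨b, rfl⟩ := mem_zpowers_iff.1 hy
      rw [← zpow_add, ← zpow_add, add_comm]
  have hker : (zpowers t).normalizerMonoidHom.ker = C.subgroupOf (normalizer ((zpowers t : Subgroup G) : Set G)) :=
    (zpowers t).normalizerMonoidHom_ker
  have hCN : C ≤ normalizer ((zpowers t : Subgroup G) : Set G) := by
    rw [hCP]
    exact le_normalizer
  have h1 := card_mul_index (zpowers t).normalizerMonoidHom.ker
  have h2 : Nat.card (zpowers t).normalizerMonoidHom.ker = p := by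
    rw [hker]
    exact (Nat.card_congr (subgroupOfEquivOfLe hCN).toEquiv).trans (by rw [hCP, hP])
  have h3 : (zpowers t).normalizerMonoidHom.ker.index ∣ p - 1 := by
    rw [index_ker]
    refine (Subgroup.card_subgroup_dvd_card _).trans ?_
    have h4 : Nat.card (MulAut (zpowers t)) = p - 1 := by
      rw [IsCyclic.card_mulAut, hP, Nat.totient_prime hp]
    rw [← h4]
  exact ⟨_, h3, by rw [← h1, h2]⟩

/-- simplicity from a self-centralising element of prime order -/
theorem simple_crit [Finite G] (p r m : ℕ) [Fact p.Prime] (hr : r.Prime) (t : G) (ht : orderOf t = p)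
    (hC : ∀ g : G, g * t = t * g → g ∈ zpowers t) (hG : Nat.card G = p * m) (hpm : ¬ p ∣ m)
    (arith : ∀ k, k ∣ p - 1 → k ∣ m → m / k % p = 1 → k = r) (hm : m ≠ r)
    (hdiv : ∀ N : Subgroup G, N.Normal → N ≠ ⊥ → p ∣ Nat.card N) : IsSimpleGroup G := by
  have hp : p.Prime := Fact.out
  have hm0 : m ≠ 0 := by
    rintro rfl
    exact hpm (dvd_zero _)
  have hntG : Nontrivial G := by
    refine ⟨⟨t, 1, fun h => ?_⟩⟩
    rw [h, orderOf_one] at ht
    exact hp.one_lt.ne ht
  have hPc : Nat.card (zpowers t) = p := by rw [Nat.card_zpowers, ht]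
  have hfac : p ^ (Nat.card G).factorization p = p := by
    rw [hG, Nat.factorization_mul hp.ne_zero hm0]
    simp [hp.factorization, Nat.factorization_eq_zero_of_not_dvd hpm]
  let P : Sylow p G := Sylow.ofCard (zpowers t) (by rw [hPc, hfac])
  have hPP : (P : Subgroup G) = zpowers t := rfl
  have hP : Nat.card P = p := hPc
  obtain ⟨k, hk1, hk2⟩ := card_normalizer p t ht hC
  have hk2' : Nat.card (normalizer (P : Set G)) = p * k := hk2
  have hkm : k ∣ m := by
    have h1 := Subgroup.card_subgroup_dvd_card (normalizer (P : Set G))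
    rw [hk2', hG] at h1
    exact Nat.dvd_of_mul_dvd_mul_left hp.pos h1
  have hk0 : 0 < k := Nat.pos_of_ne_zero (by rintro rfl; exact hm0 (Nat.eq_zero_of_zero_dvd hkm))
  have hmod : m / k % p = 1 := by
    have h1 := card_sylow_modEq_one p G
    rw [P.card_eq_index_normalizer] at h1
    have h2 := card_mul_index (normalizer (P : Set G))
    rw [hk2', hG, mul_assoc] at h2
    have h3 := Nat.eq_of_mul_eq_mul_left hp.pos h2
    have h4 : m / k = (normalizer (P : Set G)).index := by
      rw [← h3, Nat.mul_div_cancel_left _ hk0]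
    rw [h4]
    have h5 : (normalizer (P : Set G)).index % p = 1 % p := h1
    rw [h5, Nat.mod_eq_of_lt hp.one_lt]
  have hkr := arith k hk1 hkm hmod
  subst hkr
  exact simple_of_sylow p k hr P hP hk2' (by rw [hG]; intro h; exact hm (Nat.eq_of_mul_eq_mul_left hp.pos h)) hdiv

end

section suborbits

variable {G α : Type*} [Group G] [MulAction G α]

/-- the orbit of a subgroup containing the point stabiliser is a union of suborbits, and its length divides -/
theorem block (x : α) (H : Subgroup G) (hH : MulAction.stabilizer G x ≤ H) (hfin : (MulAction.orbit G x).Finite)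
    (f : α → ℤ) (L : Finset ℤ) (hL : ∀ y ∈ MulAction.orbit G x, f y ∈ L)
    (hf : ∀ y ∈ MulAction.orbit G x, ∀ z ∈ MulAction.orbit G x, f y = f z → ∃ g : G, g • x = x ∧ g • y = z) :
    ∃ S ⊆ L, (∀ y ∈ MulAction.orbit G x, (y ∈ MulAction.orbit H x ↔ f y ∈ S)) ∧
      (MulAction.orbit H x).ncard = ∑ k ∈ S, {y | y ∈ MulAction.orbit G x ∧ f y = k}.ncard ∧
      (MulAction.orbit H x).ncard ∣ (MulAction.orbit G x).ncard := by
  classical
  have hsub : MulAction.orbit H x ⊆ MulAction.orbit G x := by
    rintro _ ⟨h, rfl⟩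
    exact ⟨(h : G), rfl⟩
  have hfinH : (MulAction.orbit H x).Finite := hfin.subset hsub
  refine ⟨L.filter fun k => ∃ y ∈ MulAction.orbit H x, f y = k, Finset.filter_subset _ _, ?_, ?_, ?_⟩
  · intro y hy
    rw [Finset.mem_filter]
    constructor
    · intro h; exact ⟨hL y hy, y, h, rfl⟩
    · rintro ⟨_, z, hz, hzy⟩
      obtain ⟨g, hg1, hg2⟩ := hf z (hsub hz) y hy hzy
      obtain ⟨h, rfl⟩ := hz
      refine ⟨⟨g, hH hg1⟩ * h, ?_⟩
      show ((⟨g, hH hg1⟩ : H) * h) • x = y
      rw [mul_smul]
      exact hg2
  · have key : ∀ y ∈ MulAction.orbit G x, (y ∈ MulAction.orbit H x ↔ f y ∈ L.filter fun k => ∃ y ∈ MulAction.orbit H x, f y = k) := by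
      intro y hy
      rw [Finset.mem_filter]
      constructor
      · intro h; exact ⟨hL y hy, y, h, rfl⟩
      · rintro ⟨_, z, hz, hzy⟩
        obtain ⟨g, hg1, hg2⟩ := hf z (hsub hz) y hy hzy
        obtain ⟨h, rfl⟩ := hz
        refine ⟨⟨g, hH hg1⟩ * h, ?_⟩
        show ((⟨g, hH hg1⟩ : H) * h) • x = y
        rw [mul_smul]
        exact hg2
    rw [Set.ncard_eq_toFinset_card _ hfinH]
    rw [Finset.card_eq_sum_card_fiberwise (f := f) (t := L.filter fun k => ∃ y ∈ MulAction.orbit H x, f y = k)]
    · apply Finset.sum_congr rfl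
      intro k hk
      rw [← Set.ncard_coe_finset]
      congr 1
      ext y
      simp only [Finset.coe_filter, Set.Finite.mem_toFinset, Set.mem_ofPred_eq]
      constructor
      · rintro ⟨h1, h2⟩; exact ⟨hsub h1, h2⟩
      · rintro ⟨h1, h2⟩; exact ⟨(key y h1).2 (by rw [h2]; exact hk), h2⟩
    · intro y hy
      have hy' : y ∈ MulAction.orbit H x := by simpa using hy
      exact (key y (hsub hy')).1 hy'
  · have h1 : (MulAction.orbit H x).ncard = (MulAction.stabilizer H x).index := (MulAction.index_stabilizer H x).symm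
    have h2 : (MulAction.orbit G x).ncard = (MulAction.stabilizer G x).index := (MulAction.index_stabilizer G x).symm
    have h3 : MulAction.stabilizer H x = (MulAction.stabilizer G x).subgroupOf H := by
      ext g
      rw [Subgroup.mem_subgroupOf, MulAction.mem_stabilizer_iff, MulAction.mem_stabilizer_iff]
      rfl
    rw [h1, h2, h3, ← Subgroup.relIndex, ← Subgroup.relIndex_mul_index hH]
    exact Dvd.intro _ rfl

/-- the orbit of a normal subgroup times the point stabiliser -/
theorem orbit_normal_sup (x : α) (N : Subgroup G) [hN : N.Normal] :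
    MulAction.orbit ↥(N ⊔ MulAction.stabilizer G x) x = MulAction.orbit N x := by
  ext y
  constructor
  · rintro ⟨⟨h, hh⟩, rfl⟩
    rw [← SetLike.mem_coe, Subgroup.normal_mul] at hh
    obtain ⟨n, hn, s, hs, rfl⟩ := hh
    refine ⟨⟨n, hn⟩, ?_⟩
    show n • x = (n * s) • x
    rw [mul_smul, MulAction.mem_stabilizer_iff.1 hs]
  · rintro ⟨⟨n, hn⟩, rfl⟩
    exact ⟨⟨n, Subgroup.mem_sup_left hn⟩, rfl⟩

end suborbits

end Cfsg.Agent.H7.Crit
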