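import Mathlib
import Cfsg.Agent.H7_Co6
import Cfsg.Agent.H7_Crit

set_option autoImplicit false

/-!
The embedding of `M24` in `Co0` and the centraliser of an element of order 23.
-/

namespace Cfsg.Agent.H7.CoT

open Cfsg Cfsg.Agent.H7.Golay Cfsg.Agent.H7.Oct Cfsg.Agent.H7.L1 Cfsg.Agent.H7.L2 Cfsg.Agent.H7.L3 Cfsg.Agent.H7.L4 Cfsg.Agent.H7.L5
  Cfsg.Agent.H7.L6 Cfsg.Agent.H7.L7 Cfsg.Agent.H7.L8 Cfsg.Agent.H7.L9 Cfsg.Agent.H7.L10 Cfsg.Agent.H7.L11 Cfsg.Agent.H7.LV
  Cfsg.Agent.H7.LV8 Cfsg.Agent.H7.Co Cfsg.Agent.H7.Co3 Cfsg.Agent.H7.Co4 Cfsg.Agent.H7.Co5 Cfsg.Agent.H7.Co6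
  Cfsg.Agent.H7.M24 Cfsg.Agent.H7.M24b
open scoped Pointwise

theorem exists_pe (σ : M24) : ∃ g : Co0, ∀ x : leechLattice, ((g • x : leechLattice) : GolayPt → ℤ) = fun i => (x : GolayPt → ℤ) (σ.1.symm i) := by
  obtain ⟨g, hg⟩ := exists_mono σ.2 (c := ∅) Spor.empty_mem_supports_golayCode
  refine ⟨g, fun x => ?_⟩
  rw [hg]
  funext i
  simp [signedPerm]

theorem ext_coe {g h : Co0} (H : ∀ x : leechLattice, ((g • x : leechLattice) : GolayPt → ℤ) = ((h • x : leechLattice) : GolayPt → ℤ)) :
    g = h := ext8 fun i => Subtype.ext (H (O8 i))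

/-- `M24` in `Co0` -/
noncomputable def pe : M24 →* Co0 := MonoidHom.mk' (fun σ => (exists_pe σ).choose) (by
  intro σ τ
  apply ext_coe
  intro x
  rw [(exists_pe (σ * τ)).choose_spec x, mul_smul, (exists_pe σ).choose_spec, (exists_pe τ).choose_spec]
  rfl)

theorem pe_coe (σ : M24) (x : leechLattice) : ((pe σ • x : leechLattice) : GolayPt → ℤ) = fun i => (x : GolayPt → ℤ) (σ.1.symm i) :=
  (exists_pe σ).choose_spec x

theorem pe_O8 (σ : M24) (i : GolayPt) : pe σ • O8 i = O8 (σ.1 i) := by
  apply Subtype.ext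
  rw [pe_coe]
  funext j
  rw [O8_coe, O8_coe, Pi.single_apply, Pi.single_apply]
  have : σ.1.symm j = i ↔ j = σ.1 i := Equiv.symm_apply_eq σ.1
  simp only [this]

theorem O8_inj {i j : GolayPt} (h : O8 i = O8 j) : i = j := by
  by_contra hne
  have h1 := congrFun (congrArg (fun x : leechLattice => (x : GolayPt → ℤ)) h) i
  simp only [O8_coe] at h1
  rw [Pi.single_eq_same, Pi.single_eq_of_ne hne] at h1
  norm_num at h1

theorem pe_injective : Function.Injective pe := by
  intro σ τ h
  apply Subtype.ext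
  apply Equiv.ext
  intro i
  apply O8_inj
  rw [← pe_O8, ← pe_O8, h]

/-- monomial elements without signs -/
theorem eq_pe_of_mono {g : Co0} {σ : Equiv.Perm GolayPt} (hσ : σ ∈ M24)
    (h : ∀ v : leechLattice, ((g • v : leechLattice) : GolayPt → ℤ) = signedPerm σ ∅ v) : g = pe ⟨σ, hσ⟩ := by
  apply ext_coe
  intro x
  rw [h, pe_coe]
  funext i
  simp [signedPerm]

theorem vE_apply (i : GolayPt) : (vE : GolayPt → ℤ) i = if i = none then 5 else 1 := by
  rw [vE_coe]
  revert i
  decide +kernel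

/-- an element fixing an `O8` and `vE` is in `M24` -/
theorem mono_fix {g : Co0} {i : GolayPt} (h1 : g • O8 i = O8 i) (h2 : g • vE = vE) : ∃ σ : M24, g = pe σ ∧ σ.1 i = i := by
  have h3 : g ∈ NN := stab_le_NN i h1
  obtain ⟨σ, hσ, c, hc, h4⟩ := mono_of_pres (mem_NN.1 h3)
  have h5 : c = ∅ := by
    rw [Finset.eq_empty_iff_forall_notMem]
    intro j hj
    have h6 := congrFun (h4 vE) j
    rw [h2] at h6
    simp only [signedPerm, if_pos hj] at h6
    have h7 : ∀ k, 0 < (vE : GolayPt → ℤ) k := by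
      intro k
      rw [vE_apply]
      split <;> norm_num
    have := h7 j
    have := h7 (σ.symm j)
    omega
  subst h5
  have h6 := eq_pe_of_mono hσ h4
  refine ⟨⟨σ, hσ⟩, h6, ?_⟩
  apply O8_inj
  rw [← pe_O8, ← h6, h1]

/-! ### the element of order 23 -/

/-- translation by one -/
def TT : Equiv.Perm GolayPt := Equiv.optionCongr (Equiv.addRight (1 : ZMod 23))

theorem TT_none : TT none = none := rfl

theorem TT_some (j : ZMod 23) : TT (some j) = some (j + 1) := rfl

theorem TT_pow_none (n : ℕ) : (TT ^ n) none = none := by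
  induction n with
  | zero => rfl
  | succ n ih => rw [pow_succ', Equiv.Perm.mul_apply, ih, TT_none]

theorem TT_pow_some (n : ℕ) (j : ZMod 23) : (TT ^ n) (some j) = some (j + n) := by
  induction n with
  | zero => simp
  | succ n ih => rw [pow_succ', Equiv.Perm.mul_apply, ih, TT_some]; push_cast; rw [add_assoc]

theorem TT_mem : TT ∈ M24 := T_mem

/-- as an element of `M24` -/
def TM : M24 := ⟨TT, TT_mem⟩

instance fact23 : Fact (Nat.Prime 23) := ⟨by norm_num⟩

theorem orderOf_TM : orderOf TM = 23 := by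
  rw [orderOf_eq_prime_iff]
  constructor
  · apply Subtype.ext
    apply Equiv.ext
    intro i
    show (TT ^ 23) i = i
    cases i with
    | none => exact TT_pow_none 23
    | some j =>
      rw [TT_pow_some]
      have : ((23 : ℕ) : ZMod 23) = 0 := ZMod.natCast_self 23
      rw [this, add_zero]
  · intro h
    have h1 : TT (some 0) = some 0 := by
      have := congrArg (fun s : M24 => s.1 (some 0)) h
      exact this
    rw [TT_some] at h1
    have h2 : (0 : ZMod 23) + 1 = 0 := Option.some.inj h1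
    revert h2
    decide

/-- the element of order 23 in `Co0` -/
noncomputable def tt : Co0 := pe TM

theorem orderOf_tt : orderOf tt = 23 := by
  rw [tt, orderOf_injective pe pe_injective, orderOf_TM]

theorem tt_coe (x : leechLattice) (i : GolayPt) : ((tt • x : leechLattice) : GolayPt → ℤ) i = (x : GolayPt → ℤ) (TT.symm i) :=
  congrFun (pe_coe TM x) i

/-- fixed vectors are constant off infinity -/
theorem fix_tt {x : leechLattice} (h : tt • x = x) (j : ZMod 23) : (x : GolayPt → ℤ) (some j) = (x : GolayPt → ℤ) (some 0) := by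
  have h1 : ∀ j : ZMod 23, (x : GolayPt → ℤ) (some (j + 1)) = (x : GolayPt → ℤ) (some j) := by
    intro j
    have h2 := tt_coe x (some (j + 1))
    rw [h] at h2
    rw [h2]
    have : TT.symm (some (j + 1)) = some j := by rw [Equiv.symm_apply_eq, TT_some]
    rw [this]
  have h3 : ∀ n : ℕ, (x : GolayPt → ℤ) (some (n : ZMod 23)) = (x : GolayPt → ℤ) (some 0) := by
    intro n
    induction n with
    | zero => simp
    | succ n ih => push_cast; rw [h1, ih]
  have h4 : ((j.val : ℕ) : ZMod 23) = j := ZMod.natCast_zmod_val j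
  rw [← h4]
  exact h3 _

theorem nm_const {x : GolayPt → ℤ} (h : ∀ j, x (some j) = x (some 0)) : sqNorm x = x none ^ 2 + 23 * x (some 0) ^ 2 := by
  rw [sqNorm, Fintype.sum_option, Finset.sum_congr rfl (fun j _ => by rw [h j])]
  rw [Finset.sum_const]
  rw [show (Finset.univ : Finset (ZMod 23)).card = 23 from rfl]
  simp

theorem sum_const' {x : GolayPt → ℤ} (h : ∀ j, x (some j) = x (some 0)) : ∑ i, x i = x none + 23 * x (some 0) := by
  rw [Fintype.sum_option, Finset.sum_congr rfl (fun j _ => h j)]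
  rw [Finset.sum_const]
  rw [show (Finset.univ : Finset (ZMod 23)).card = 23 from rfl]
  simp

/-- minus three at infinity -/
noncomputable def vA : leechLattice := vE - O8 none

theorem vA_apply (i : GolayPt) : (vA : GolayPt → ℤ) i = if i = none then -3 else 1 := by
  have h1 : (vA : GolayPt → ℤ) i = (vE : GolayPt → ℤ) i - (O8 none : GolayPt → ℤ) i := rfl
  rw [h1, vE_apply, O8_coe, Pi.single_apply]
  split <;> norm_num

theorem tt_fix_of {x : leechLattice} (h : ∀ j, (x : GolayPt → ℤ) (some j) = (x : GolayPt → ℤ) (some 0)) : tt • x = x := by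
  apply Subtype.ext
  funext i
  rw [tt_coe]
  cases i with
  | none =>
    have : TT.symm none = none := by rw [Equiv.symm_apply_eq, TT_none]
    rw [this]
  | some j =>
    have : TT.symm (some j) = some (j - 1) := by rw [Equiv.symm_apply_eq, TT_some, sub_add_cancel]
    rw [this, h, h j]

theorem tt_vE : tt • vE = vE := tt_fix_of fun j => by rw [vE_apply, vE_apply, if_neg (by simp), if_neg (by simp)]

theorem tt_vA : tt • vA = vA := tt_fix_of fun j => by rw [vA_apply, vA_apply, if_neg (by simp), if_neg (by simp)]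

theorem nm_vA : Nm vA = 32 := by
  show sqNorm (vA : GolayPt → ℤ) = 32
  rw [nm_const (fun j => by rw [vA_apply, vA_apply, if_neg (by simp), if_neg (by simp)]), vA_apply, vA_apply,
    if_pos rfl, if_neg (by simp)]
  norm_num

theorem nm_vE : Nm vE = 48 := vE_norm

theorem dt_vE_vA : Dt vE vA = 8 := by
  have h1 : Dt vE vA = Dt vE vE - Dt vE (O8 none) := dt_sub' _ _ _
  rw [h1, dt_self, nm_vE, dt_comm, dt_O8, vE_apply]
  norm_num

theorem fix32 {x : leechLattice} (h : tt • x = x) (hn : Nm x = 32) : x = vA ∨ x = -vA := by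
  have h1 := fix_tt h
  have h2 : Nm x = (x : GolayPt → ℤ) none ^ 2 + 23 * (x : GolayPt → ℤ) (some 0) ^ 2 := nm_const h1
  rw [hn] at h2
  have h3 := sum_const' h1
  have h4 : (x : GolayPt → ℤ) (some 0) ^ 2 ≤ 1 := by nlinarith [sq_nonneg ((x : GolayPt → ℤ) none)]
  have h5 : |(x : GolayPt → ℤ) (some 0)| ≤ 1 := by
    rw [← sq_le_one_iff_abs_le_one]; exact h4
  rw [abs_le] at h5
  have h6 : (x : GolayPt → ℤ) none ≤ 5 := by nlinarith
  have h7 : -5 ≤ (x : GolayPt → ℤ) none := by nlinarith
  obtain ⟨p, hp⟩ : ∃ p, p = (x : GolayPt → ℤ) none := ⟨_, rfl⟩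
  obtain ⟨q, hq⟩ : ∃ q, q = (x : GolayPt → ℤ) (some 0) := ⟨_, rfl⟩
  rw [← hp, ← hq] at h2 h3
  rw [← hp] at h6 h7
  rw [← hq] at h5
  have h8 : (p = -3 ∧ q = 1) ∨ (p = 3 ∧ q = -1) := by
    obtain ⟨h51, h52⟩ := h5
    rcases mem_leech_iff.1 x.2 with hx | hx
    · exfalso
      have h9 := hx.1 (some 0)
      rw [← hq] at h9
      have h10 : q = 0 := by omega
      rw [h10] at h2
      interval_cases p <;> norm_num at h2
    · have h9 := hx.2.1
      rw [h3] at h9
      have h10 := hx.1 (some 0)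
      rw [← hq] at h10
      have h11 : q = 1 ∨ q = -1 := by omega
      rcases h11 with rfl | rfl
      · left
        interval_cases p <;> first | (norm_num at h2; done) | (norm_num at h9; done) | norm_num
      · right
        interval_cases p <;> first | (norm_num at h2; done) | (norm_num at h9; done) | norm_num
  rcases h8 with ⟨h8, h9⟩ | ⟨h8, h9⟩
  · left
    apply Subtype.ext
    funext i
    rw [vA_apply]
    cases i with
    | none => rw [if_pos rfl, ← hp, h8]
    | some j => rw [if_neg (by simp), h1, ← hq, h9]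
  · right
    apply Subtype.ext
    funext i
    show (x : GolayPt → ℤ) i = -(vA : GolayPt → ℤ) i
    rw [vA_apply]
    cases i with
    | none => rw [if_pos rfl, ← hp, h8]; norm_num
    | some j => rw [if_neg (by simp), h1, ← hq, h9]

theorem fix48 {x : leechLattice} (h : tt • x = x) (hn : Nm x = 48) : x = vE ∨ x = -vE := by
  have h1 := fix_tt h
  have h2 : Nm x = (x : GolayPt → ℤ) none ^ 2 + 23 * (x : GolayPt → ℤ) (some 0) ^ 2 := nm_const h1
  rw [hn] at h2
  have h3 := sum_const' h1
  have h4 : (x : GolayPt → ℤ) (some 0) ^ 2 ≤ 2 := by nlinarith [sq_nonneg ((x : GolayPt → ℤ) none)]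
  have h5 : |(x : GolayPt → ℤ) (some 0)| ≤ 1 := by
    by_contra hc
    push Not at hc
    have : 2 ≤ |(x : GolayPt → ℤ) (some 0)| := hc
    have h6 := sq_abs ((x : GolayPt → ℤ) (some 0))
    nlinarith
  rw [abs_le] at h5
  have h6 : (x : GolayPt → ℤ) none ≤ 6 := by nlinarith
  have h7 : -6 ≤ (x : GolayPt → ℤ) none := by nlinarith
  obtain ⟨p, hp⟩ : ∃ p, p = (x : GolayPt → ℤ) none := ⟨_, rfl⟩
  obtain ⟨q, hq⟩ : ∃ q, q = (x : GolayPt → ℤ) (some 0) := ⟨_, rfl⟩
  rw [← hp, ← hq] at h2 h3
  rw [← hp] at h6 h7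
  rw [← hq] at h5
  have h8 : (p = 5 ∧ q = 1) ∨ (p = -5 ∧ q = -1) := by
    obtain ⟨h51, h52⟩ := h5
    rcases mem_leech_iff.1 x.2 with hx | hx
    · exfalso
      have h9 := hx.1 (some 0)
      rw [← hq] at h9
      have h10 : q = 0 := by omega
      rw [h10] at h2
      interval_cases p <;> norm_num at h2
    · have h9 := hx.2.1
      rw [h3] at h9
      have h10 := hx.1 (some 0)
      rw [← hq] at h10
      have h11 : q = 1 ∨ q = -1 := by omega
      rcases h11 with rfl | rfl
      · left
        interval_cases p <;> first | (norm_num at h2; done) | (norm_num at h9; done) | norm_num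
      · right
        interval_cases p <;> first | (norm_num at h2; done) | (norm_num at h9; done) | norm_num
  rcases h8 with ⟨h8, h9⟩ | ⟨h8, h9⟩
  · left
    apply Subtype.ext
    funext i
    rw [vE_apply]
    cases i with
    | none => rw [if_pos rfl, ← hp, h8]
    | some j => rw [if_neg (by simp), h1, ← hq, h9]
  · right
    apply Subtype.ext
    funext i
    show (x : GolayPt → ℤ) i = -(vE : GolayPt → ℤ) i
    rw [vE_apply]
    cases i with
    | none => rw [if_pos rfl, ← hp, h8]
    | some j => rw [if_neg (by simp), h1, ← hq, h9]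

theorem O8_none_eq : O8 none = vE - vA := by rw [vA]; abel

/-- permutations commuting with the translation -/
theorem comm_TT {σ : M24} (h : σ * TM = TM * σ) (h0 : σ.1 none = none) : ∃ k : ℕ, σ = TM ^ k := by
  have h1 : ∀ i, σ.1 (TT i) = TT (σ.1 i) := fun i => congrArg (fun s : M24 => s.1 i) h
  obtain ⟨a, ha⟩ : ∃ a : ZMod 23, σ.1 (some 0) = some a := by
    rcases hs : σ.1 (some 0) with _ | a
    · rw [← h0] at hs
      have := σ.1.injective hs
      simp at this
    · exact ⟨a, rfl⟩
  have h2 : ∀ n : ℕ, σ.1 (some (n : ZMod 23)) = some (a + n) := by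
    intro n
    induction n with
    | zero => simpa using ha
    | succ n ih =>
      push_cast
      rw [← TT_some, h1, ih, TT_some, add_assoc]
  refine ⟨a.val, ?_⟩
  apply Subtype.ext
  apply Equiv.ext
  intro i
  show σ.1 i = (TT ^ a.val) i
  cases i with
  | none => rw [h0, TT_pow_none]
  | some j =>
    have h4 : ((j.val : ℕ) : ZMod 23) = j := ZMod.natCast_zmod_val j
    have h5 : ((a.val : ℕ) : ZMod 23) = a := ZMod.natCast_zmod_val a
    rw [TT_pow_some, h5, ← h4, h2, add_comm]

/-- the centraliser of the element of order 23 -/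
theorem cent_tt {g : Co0} (h : g * tt = tt * g) : (∃ k : ℕ, g = tt ^ k) ∨ ∃ k : ℕ, m1 * g = tt ^ k := by
  have key : ∀ g : Co0, g * tt = tt * g → g • vE = vE → ∃ k : ℕ, g = tt ^ k := by
    intro g h h1
    have h2 : tt • (g • vA) = g • vA := by rw [← mul_smul, ← h, mul_smul, tt_vA]
    have h3 : g • vA = vA := by
      rcases fix32 h2 ((nm_smul g vA).trans nm_vA) with h3 | h3
      · exact h3
      · exfalso
        have h4 := dt_smul g vE vA
        rw [h1, h3, dt_neg', dt_vE_vA] at h4
        norm_num at h4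
    have h4 : g • O8 none = O8 none := by rw [O8_none_eq, smul_sub'', h1, h3]
    obtain ⟨σ, hσ, h5⟩ := mono_fix h4 h1
    have h6 : σ * TM = TM * σ := by
      apply pe_injective
      rw [map_mul, map_mul, ← hσ]
      exact h
    obtain ⟨k, hk⟩ := comm_TT h6 h5
    exact ⟨k, by rw [hσ, hk, map_pow]; rfl⟩
  have h1 : tt • (g • vE) = g • vE := by rw [← mul_smul, ← h, mul_smul, tt_vE]
  rcases fix48 h1 ((nm_smul g vE).trans nm_vE) with h2 | h2
  · left; exact key g h h2
  · right
    have hc := Subgroup.mem_center_iff.1 ((center_eq m1).2 (Or.inr rfl))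
    apply key
    · rw [mul_assoc, h, ← mul_assoc, ← mul_assoc, hc tt]
    · rw [mul_smul, m1_smul, h2, neg_neg]

end Cfsg.Agent.H7.CoT
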