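import Mathlib
import Cfsg.Agent.H7_CoT

set_option autoImplicit false

/-!
Simplicity of `Co3`.
-/

namespace Cfsg.Agent.H7.CoS

open Cfsg Cfsg.Agent.H7.Golay Cfsg.Agent.H7.Oct Cfsg.Agent.H7.L1 Cfsg.Agent.H7.L2 Cfsg.Agent.H7.L3 Cfsg.Agent.H7.L4 Cfsg.Agent.H7.L5
  Cfsg.Agent.H7.L6 Cfsg.Agent.H7.L7 Cfsg.Agent.H7.L8 Cfsg.Agent.H7.L9 Cfsg.Agent.H7.L10 Cfsg.Agent.H7.L11 Cfsg.Agent.H7.LV
  Cfsg.Agent.H7.LV8 Cfsg.Agent.H7.Co Cfsg.Agent.H7.Co2 Cfsg.Agent.H7.Co3 Cfsg.Agent.H7.Co4 Cfsg.Agent.H7.Co5 Cfsg.Agent.H7.Co6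
  Cfsg.Agent.H7.CoT Cfsg.Agent.H7.Crit
open scoped Pointwise

theorem zsmul_inj {n : ℤ} (hn : n ≠ 0) {x y : leechLattice} (h : n • x = n • y) : x = y := by
  apply Subtype.ext
  funext j
  have h1 : ((n • x : leechLattice) : GolayPt → ℤ) j = ((n • y : leechLattice) : GolayPt → ℤ) j := by rw [h]
  rw [AddSubgroup.coe_zsmul, AddSubgroup.coe_zsmul, Pi.smul_apply, Pi.smul_apply, smul_eq_mul, smul_eq_mul] at h1
  exact mul_left_cancel₀ hn h1

/-- four at two points -/
def O4 (i j : GolayPt) (h : i ≠ j) : leechLattice := ⟨_, (memA h (a := 4) (b := 4) (Or.inl rfl) (Or.inl rfl)).1⟩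

theorem O4_nm (i j : GolayPt) (h : i ≠ j) : Nm (O4 i j h) = 32 := (memA h (Or.inl rfl) (Or.inl rfl)).2

theorem two_O4 (i j : GolayPt) (h : i ≠ j) : (2 : ℤ) • O4 i j h = O8 i + O8 j := by
  apply Subtype.ext
  show (2 : ℤ) • (Pi.single i 4 + Pi.single j 4 : GolayPt → ℤ) = Pi.single i 8 + Pi.single j 8
  rw [smul_add, ← Pi.single_smul, ← Pi.single_smul]
  norm_num

theorem dt_O4 (i j : GolayPt) (h : i ≠ j) (x : leechLattice) :
    Dt (O4 i j h) x = 4 * (x : GolayPt → ℤ) i + 4 * (x : GolayPt → ℤ) j := by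
  have h1 : 2 * Dt (O4 i j h) x = Dt (O8 i) x + Dt (O8 j) x := by
    rw [← dt_add, ← two_O4 i j h, two_smul, dt_add]; ring
  rw [dt_O8, dt_O8] at h1
  omega

theorem nine_O8 : (9 : ℤ) • O8 none = (∑ j : ZMod 23, O4 none (some j) (by simp)) - (4 : ℤ) • vE := by
  apply Subtype.ext
  funext i
  rw [AddSubgroup.coe_zsmul, AddSubgroupClass.coe_sub, AddSubgroup.coe_zsmul, AddSubmonoidClass.coe_finsetSum]
  rw [Pi.sub_apply, Pi.smul_apply, Pi.smul_apply, Finset.sum_apply, O8_coe, vE_apply]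
  have h1 : ∀ j : ZMod 23, (O4 none (some j) (by simp) : GolayPt → ℤ) i =
      (Pi.single none 4 : GolayPt → ℤ) i + (Pi.single (some j) 4 : GolayPt → ℤ) i := fun j => rfl
  simp only [h1, smul_eq_mul]
  cases i with
  | none =>
    simp only [Pi.single_eq_same, if_true]
    have h2 : ∀ j : ZMod 23, (4 : ℤ) + (Pi.single (some j) 4 : GolayPt → ℤ) none = 4 := by
      intro j
      rw [Pi.single_eq_of_ne (by simp)]; norm_num
    rw [Finset.sum_congr rfl fun j _ => h2 j, Finset.sum_const, show (Finset.univ : Finset (ZMod 23)).card = 23 from rfl]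
    norm_num
  | some k =>
    rw [Pi.single_eq_of_ne (by simp), if_neg (by simp)]
    have h2 : ∀ j : ZMod 23, (Pi.single none 4 : GolayPt → ℤ) (some k) + (Pi.single (some j) 4 : GolayPt → ℤ) (some k) =
        if k = j then 4 else 0 := by
      intro j
      rw [Pi.single_eq_of_ne (by simp), zero_add, Pi.single_apply]
      simp
    rw [Finset.sum_congr rfl fun j _ => h2 j, Finset.sum_ite_eq, if_pos (Finset.mem_univ _)]
    norm_num

/-- an element fixing `vE` and the vectors `O4 none j` is trivial -/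
theorem triv_of_fix {g : Co0} (h1 : g • vE = vE) (h2 : ∀ j : ZMod 23, g • O4 none (some j) (by simp) = O4 none (some j) (by simp)) :
    g = 1 := by
  have h3 : g • O8 none = O8 none := by
    apply zsmul_inj (n := 9) (by norm_num)
    rw [← smul_zsmul'', nine_O8, smul_sub'', smul_zsmul'', h1, Finset.smul_sum]
    congr 1
    exact Finset.sum_congr rfl fun j _ => h2 j
  apply ext8
  intro i
  rw [one_smul]
  cases i with
  | none => exact h3
  | some j =>
    have h4 := h2 j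
    have h5 : (2 : ℤ) • (g • O4 none (some j) (by simp)) = g • (O8 none + O8 (some j)) := by
      rw [← smul_zsmul'', two_O4]
    rw [h4, two_O4, smul_add'', h3] at h5
    exact (add_left_cancel h5).symm

/-- an integer subset sum argument -/
theorem subset_sum (L S : Finset ℤ) (hS : S ⊆ L) (c : ℤ → ℕ) (P : Finset ℤ → ℕ → Prop)
    (h : ∀ S ∈ L.powerset, P S (∑ k ∈ S, c k)) : P S (∑ k ∈ S, c k) := h S (Finset.mem_powerset.2 hS)

theorem card_of_trivial_stab {G α : Type*} [Group G] [MulAction G α] (x : α) (h : MulAction.stabilizer G x = ⊥) :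
    Nat.card G = (MulAction.orbit G x).ncard := by
  rw [← MulAction.index_stabilizer, h, Subgroup.index_bot]

section co3

/-- `Co3` -/
abbrev G3 : Subgroup Co0 := MulAction.stabilizer Co0 vE

theorem g3_smul (g : G3) : (g : Co0) • vE = vE := g.2

/-- the element of order 23 in `Co3` -/
noncomputable def t3 : G3 := ⟨tt, tt_vE⟩

theorem orderOf_t3 : orderOf t3 = 23 := by
  rw [← orderOf_tt]
  exact (Subgroup.orderOf_mk tt tt_vE)

theorem m1_sq : m1 * m1 = 1 := by
  apply ext8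
  intro i
  rw [mul_smul, m1_smul, m1_smul, neg_neg, one_smul]

theorem ne_neg_of_nm {x : leechLattice} {n : ℤ} (hn : n ≠ 0) (h : Nm x = n) : x ≠ -x := by
  intro h1
  have h2 := nm_sub x (-x)
  rw [← h1, sub_self, dt_self, nm_zero_iff.2 rfl] at h2
  have h3 := dt_neg' x x
  rw [← h1, dt_self] at h3
  omega

/-- the centraliser in a vector stabiliser -/
theorem cent_of_fix {v : leechLattice} {n : ℤ} (hn : n ≠ 0) (hv : Nm v = n) (hfix : tt • v = v) {g : Co0} (hg : g • v = v)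
    (h : g * tt = tt * g) : ∃ k : ℕ, g = tt ^ k := by
  rcases cent_tt h with h1 | ⟨k, hk⟩
  · exact h1
  · exfalso
    have h1 : (tt ^ k) • v = v := by
      have : tt ^ k ∈ MulAction.stabilizer Co0 v := Subgroup.pow_mem _ hfix k
      exact this
    rw [← hk, mul_smul, hg, m1_smul] at h1
    exact ne_neg_of_nm hn hv h1.symm

theorem cent_t3 (g : G3) (h : g * t3 = t3 * g) : g ∈ Subgroup.zpowers t3 := by
  have h1 : (g : Co0) * tt = tt * g := congrArg Subtype.val h
  obtain ⟨k, hk⟩ := cent_of_fix (by norm_num) nm_vE tt_vE g.2 h1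
  rw [Subgroup.mem_zpowers_iff]
  refine ⟨k, Subtype.ext ?_⟩
  rw [zpow_natCast]
  exact hk.symm

theorem orbit_g3 : MulAction.orbit G3 vU = {y : leechLattice | Nm y = 32 ∧ Dt y vE = 24} := by
  ext y
  constructor
  · rintro ⟨g, rfl⟩
    refine ⟨(nm_smul g vU).trans vU_norm, ?_⟩
    have h := dt_smul (g : Co0) vU vE
    rw [g3_smul] at h
    exact h.trans dt_vE_vU
  · rintro ⟨h1, h2⟩
    obtain ⟨g, g1, g2⟩ := pair48_24 vE vU vE y nm_vE nm_vE vU_norm h1 dt_vE_vU h2
    exact ⟨⟨g, g1⟩, g2⟩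

/-- inner products in the set of 552 -/
theorem dots552 {x y : leechLattice} (hx : Nm x = 32 ∧ Dt x vE = 24) (hy : Nm y = 32 ∧ Dt y vE = 24) :
    y = x ∨ y = vE - x ∨ Dt y x = 16 ∨ Dt y x = 8 := by
  by_cases h1 : y = x
  · exact Or.inl h1
  by_cases h2 : y = vE - x
  · exact Or.inr (Or.inl h2)
  have h3 := nm_min (sub_ne_zero.2 h1)
  have h4 := nm_min (sub_ne_zero.2 h2)
  have h5 : Dt y x % 8 = 0 := dot_emod y.2 x.2
  rw [nm_sub, hx.1, hy.1] at h3
  have h6 : Nm (y - (vE - x)) = 16 + 2 * Dt y x := by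
    rw [nm_sub, nm_sub, dt_sub', nm_vE, dt_comm vE x, hx.2, hy.2, hx.1, hy.1]; ring
  rw [h6] at h4
  omega

theorem vE_sub {x : leechLattice} (hx : Nm x = 32 ∧ Dt x vE = 24) : Nm (vE - x) = 32 ∧ Dt (vE - x) vE = 24 ∧
    Dt (vE - x) x = -8 := by
  refine ⟨?_, ?_, ?_⟩
  · rw [nm_sub, dt_comm, nm_vE, hx.1, hx.2]; norm_num
  · rw [dt_sub, dt_self, nm_vE, hx.2]; norm_num
  · rw [dt_sub, dt_comm, hx.2, dt_self, hx.1]; norm_num

theorem cnt_275 : {y : leechLattice | Nm y = 32 ∧ Dt y vE = 24 ∧ Dt y vU = 16}.ncard = 275 :=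
  mcl_count vE vU nm_vE vU_norm dt_vE_vU

/-- the numbers of vectors -/
def c3 (k : ℤ) : ℕ := if k = 32 then 1 else if k = -8 then 1 else 275

theorem cnt3 (k : ℤ) (hk : k ∈ ({32, -8, 16, 8} : Finset ℤ)) :
    {y | y ∈ MulAction.orbit G3 vU ∧ Dt y vU = k}.ncard = c3 k := by
  rw [orbit_g3]
  have hU : Nm vU = 32 ∧ Dt vU vE = 24 := ⟨vU_norm, dt_vE_vU⟩
  simp only [Finset.mem_insert, Finset.mem_singleton] at hk
  rcases hk with rfl | rfl | rfl | rfl
  · have : {y | y ∈ {y : leechLattice | Nm y = 32 ∧ Dt y vE = 24} ∧ Dt y vU = 32} = {vU} := by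
      ext y
      simp only [Set.mem_ofPred_eq, Set.mem_singleton_iff]
      constructor
      · rintro ⟨h1, h2⟩
        rcases dots552 hU h1 with h | h | h | h
        · exact h
        · rw [h, (vE_sub hU).2.2] at h2; norm_num at h2
        · omega
        · omega
      · rintro rfl
        exact ⟨hU, by rw [dt_self]; exact vU_norm⟩
    rw [this, Set.ncard_singleton]; rfl
  · have : {y | y ∈ {y : leechLattice | Nm y = 32 ∧ Dt y vE = 24} ∧ Dt y vU = -8} = {vE - vU} := by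
      ext y
      simp only [Set.mem_ofPred_eq, Set.mem_singleton_iff]
      constructor
      · rintro ⟨h1, h2⟩
        rcases dots552 hU h1 with h | h | h | h
        · have h3 : Nm vU = 32 := vU_norm
          rw [h, dt_self, h3] at h2; norm_num at h2
        · exact h
        · omega
        · omega
      · rintro rfl
        exact ⟨⟨(vE_sub hU).1, (vE_sub hU).2.1⟩, (vE_sub hU).2.2⟩
    rw [this, Set.ncard_singleton]; rfl
  · rw [show c3 16 = 275 from rfl, ← cnt_275]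
    congr 1
    ext y
    simp only [Set.mem_ofPred_eq]
    tauto
  · rw [show c3 8 = 275 from rfl, ← cnt_275, ← Set.ncard_image_of_injective {y : leechLattice | Nm y = 32 ∧ Dt y vE = 24 ∧ Dt y vU = 16}
      (sub_right_injective (b := vE))]
    congr 1
    ext y
    constructor
    · rintro ⟨⟨h1, h2⟩, h3⟩
      have h4 := vE_sub ⟨h1, h2⟩
      refine ⟨vE - y, ⟨h4.1, h4.2.1, ?_⟩, sub_sub_cancel vE y⟩
      rw [dt_sub, dt_comm vE vU, dt_vE_vU, h3]; norm_num
    · rintro ⟨z, ⟨h1, h2, h3⟩, rfl⟩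
      have h4 := vE_sub ⟨h1, h2⟩
      refine ⟨⟨h4.1, h4.2.1⟩, ?_⟩
      rw [dt_sub, dt_comm vE vU, dt_vE_vU, h3]; norm_num

theorem tr3 (y z : leechLattice) (hy : y ∈ MulAction.orbit G3 vU) (hz : z ∈ MulAction.orbit G3 vU) (h : Dt y vU = Dt z vU) :
    ∃ g : G3, g • vU = vU ∧ g • y = z := by
  rw [orbit_g3] at hy hz
  have hU : Nm vU = 32 ∧ Dt vU vE = 24 := ⟨vU_norm, dt_vE_vU⟩
  have h0 : Dt vU vU = 32 := by rw [dt_self]; exact vU_norm
  have h8 := (vE_sub hU).2.2
  rcases dots552 hU hy with h1 | h1 | h1 | h1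
  · rcases dots552 hU hz with h2 | h2 | h2 | h2
    · exact ⟨1, one_smul _ _, by rw [one_smul, h1, h2]⟩
    · rw [h1, h2, h0, h8] at h; omega
    · rw [h1, h2, h0] at h; omega
    · rw [h1, h2, h0] at h; omega
  · rcases dots552 hU hz with h2 | h2 | h2 | h2
    · rw [h1, h2, h0, h8] at h; omega
    · exact ⟨1, one_smul _ _, by rw [one_smul, h1, h2]⟩
    · rw [h1, h2, h8] at h; omega
    · rw [h1, h2, h8] at h; omega
  · rw [h1] at h
    obtain ⟨g, g1, g2, g3⟩ := mcl_trans vE vU y z nm_vE vU_norm dt_vE_vU hy.1 hy.2 h1 hz.1 hz.2 h.symm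
    exact ⟨⟨g, g1⟩, g2, g3⟩
  · rw [h1] at h
    have h3 := vE_sub hy
    have h4 := vE_sub hz
    obtain ⟨g, g1, g2, g3⟩ := mcl_trans vE vU (vE - y) (vE - z) nm_vE vU_norm dt_vE_vU h3.1 h3.2.1
      (by rw [dt_sub, dt_comm vE vU, dt_vE_vU, h1]; norm_num) h4.1 h4.2.1
      (by rw [dt_sub, dt_comm vE vU, dt_vE_vU, ← h]; norm_num)
    refine ⟨⟨g, g1⟩, g2, ?_⟩
    rw [smul_sub'', g1] at g3
    exact sub_right_injective g3

theorem card_G3 : Nat.card G3 = 495766656000 := card_stab48 vE nm_vE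

theorem co3_div (N : Subgroup G3) (hN : N.Normal) (hne : N ≠ ⊥) : 23 ∣ Nat.card N := by
  by_contra hnd
  apply hne
  have hmod := card_normal_modEq 23 t3 orderOf_t3 cent_t3 N hnd
  have hU : Nm vU = 32 ∧ Dt vU vE = 24 := ⟨vU_norm, dt_vE_vU⟩
  have hfin : (MulAction.orbit G3 vU).Finite := by
    rw [orbit_g3]; exact (finite_nm 32).subset fun y hy => hy.1
  obtain ⟨S, hS, hS1, hS2, hS3⟩ := block vU (N ⊔ MulAction.stabilizer G3 vU) le_sup_right hfin (fun y => Dt y vU)
    {32, -8, 16, 8} (by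
      intro y hy
      rw [orbit_g3] at hy
      have h0 : Dt vU vU = 32 := by rw [dt_self]; exact vU_norm
      have h8 := (vE_sub hU).2.2
      simp only [Finset.mem_insert, Finset.mem_singleton]
      rcases dots552 hU hy with h1 | h1 | h1 | h1
      · left; rw [h1, h0]
      · right; left; rw [h1, h8]
      · right; right; left; exact h1
      · right; right; right; exact h1) (fun y hy z hz h => tr3 y z hy hz h)
  rw [Finset.sum_congr rfl fun k hk => cnt3 k (hS hk)] at hS2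
  rw [hS2] at hS3
  have h552 : (MulAction.orbit G3 vU).ncard = 552 := by
    rw [orbit_g3]; exact cnt48_24 vE nm_vE
  rw [h552] at hS3
  rw [orbit_normal_sup] at hS2
  have hnd2 : ¬ 23 ∣ ∑ k ∈ S, c3 k := by
    rw [← hS2, ← MulAction.index_stabilizer]
    exact fun h => hnd (h.trans (Subgroup.index_dvd_card _))
  have hS4 : (16 : ℤ) ∉ S ∧ (8 : ℤ) ∉ S := by
    have : ∀ S ∈ ({32, -8, 16, 8} : Finset ℤ).powerset, (∑ k ∈ S, c3 k) ∣ 552 → ¬ 23 ∣ ∑ k ∈ S, c3 k →
        (16 : ℤ) ∉ S ∧ (8 : ℤ) ∉ S ∨ ∑ k ∈ S, c3 k = 0 := by decide +kernel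
    rcases this S (Finset.mem_powerset.2 hS) hS3 hnd2 with h | h
    · exact h
    · exfalso; rw [h] at hS3; norm_num at hS3
  -- the orbits of `N`
  have horb : ∀ n ∈ N, n • vU = vU ∨ n • vU = vE - vU := by
    intro n hn
    have h1 : n • vU ∈ MulAction.orbit G3 vU := ⟨n, rfl⟩
    have h2 : n • vU ∈ MulAction.orbit ↥(N ⊔ MulAction.stabilizer G3 vU) vU := by
      rw [orbit_normal_sup]; exact ⟨⟨n, hn⟩, rfl⟩
    have h3 := (hS1 _ h1).1 h2
    rw [orbit_g3] at h1
    rcases dots552 hU h1 with h | h | h | h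
    · exact Or.inl h
    · exact Or.inr h
    · rw [h] at h3; exact absurd h3 hS4.1
    · rw [h] at h3; exact absurd h3 hS4.2
  have horb' : ∀ n ∈ N, ∀ w, Nm w = 32 ∧ Dt w vE = 24 → n • w = w ∨ n • w = vE - w := by
    intro n hn w hw
    have h1 : w ∈ MulAction.orbit G3 vU := by rw [orbit_g3]; exact hw
    obtain ⟨g, rfl⟩ := h1
    have h2 := horb _ (hN.conj_mem n hn g⁻¹)
    rw [inv_inv, mul_smul, mul_smul] at h2
    rcases h2 with h2 | h2
    · left
      exact (inv_smul_eq_iff.1 h2)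
    · right
      have h3 := inv_smul_eq_iff.1 h2
      rw [h3]
      show (g : Co0) • (vE - vU) = _
      rw [smul_sub'', g3_smul]
      rfl
  have hstab : MulAction.stabilizer N vU = ⊥ := by
    rw [eq_bot_iff]
    intro n hn
    rw [MulAction.mem_stabilizer_iff] at hn
    rw [Subgroup.mem_bot]
    apply Subtype.ext
    apply Subtype.ext
    have hfix : ∀ w, Nm w = 32 ∧ Dt w vE = 24 → ((n : G3) : Co0) • w = w := by
      intro w hw
      rcases horb' n n.2 w hw with h | h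
      · exact h
      · have h0 : Dt vU vU = 32 := by rw [dt_self]; exact vU_norm
        have h1 : Dt ((n : G3) • w) ((n : G3) • vU) = Dt w vU := dt_smul _ _ _
        have h2 : (n : G3) • vU = vU := hn
        rw [h, h2, dt_sub, dt_comm vE vU, dt_vE_vU] at h1
        rcases dots552 hU hw with h3 | h3 | h3 | h3
        · rw [h3, h0] at h1; norm_num at h1
        · rw [h3, (vE_sub hU).2.2] at h1; norm_num at h1
        · rw [h3] at h1; norm_num at h1
        · rw [h3] at h1; norm_num at h1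
    apply triv_of_fix (g3_smul n)
    intro j
    apply hfix
    refine ⟨O4_nm _ _ _, ?_⟩
    rw [dt_O4, vE_apply, vE_apply, if_pos rfl, if_neg (by simp)]
    norm_num
  have hcard := card_of_trivial_stab vU hstab
  have h5 : (MulAction.orbit N vU).ncard ≤ 2 := by
    have h6 : MulAction.orbit N vU ⊆ {vU, vE - vU} := by
      rintro _ ⟨n, rfl⟩
      exact horb n n.2
    refine (Set.ncard_le_ncard h6 (Set.toFinite _)).trans (Set.ncard_insert_le _ _ |>.trans ?_)
    rw [Set.ncard_singleton]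
  have h7 : Nat.card N = 1 := by
    have h8 : Nat.card N ≤ 2 := by rw [hcard]; exact h5
    have h9 : Nat.card N % 23 = 1 % 23 := hmod
    omega
  exact Subgroup.card_eq_one.1 h7

theorem co3_simple : IsSimpleGroup G3 := by
  refine simple_crit 23 11 21555072000 (by norm_num) t3 orderOf_t3 cent_t3 (by rw [card_G3]) (by norm_num) ?_ (by norm_num)
    co3_div
  intro k hk _ h
  have h1 : k ∈ Nat.divisors 22 := Nat.mem_divisors.2 ⟨hk, by norm_num⟩
  have h2 : Nat.divisors 22 = {1, 2, 11, 22} := by decide +kernel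
  rw [h2] at h1
  simp only [Finset.mem_insert, Finset.mem_singleton] at h1
  rcases h1 with rfl | rfl | rfl | rfl
  · norm_num at h
  · norm_num at h
  · rfl
  · norm_num at h

end co3

end Cfsg.Agent.H7.CoS
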