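import Mathlib
import Cfsg.Agent.H7_CoS
import Cfsg.Agent.H7_Co7
import Cfsg.Agent.H7_M24c

set_option autoImplicit false

/-!
The element of order 11 and its centraliser in `McL` and `HS`.
-/

namespace Cfsg.Agent.H7.CoM

open Cfsg Cfsg.Agent.H7.Golay Cfsg.Agent.H7.Oct Cfsg.Agent.H7.L1 Cfsg.Agent.H7.L2 Cfsg.Agent.H7.L3 Cfsg.Agent.H7.L4 Cfsg.Agent.H7.L5
  Cfsg.Agent.H7.L6 Cfsg.Agent.H7.L7 Cfsg.Agent.H7.L8 Cfsg.Agent.H7.L9 Cfsg.Agent.H7.L10 Cfsg.Agent.H7.L11 Cfsg.Agent.H7.LV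
  Cfsg.Agent.H7.LV8 Cfsg.Agent.H7.Co Cfsg.Agent.H7.Co2 Cfsg.Agent.H7.Co3 Cfsg.Agent.H7.Co4 Cfsg.Agent.H7.Co5 Cfsg.Agent.H7.Co6
  Cfsg.Agent.H7.Co7 Cfsg.Agent.H7.CoT Cfsg.Agent.H7.Crit Cfsg.Agent.H7.CoS Cfsg.Agent.H7.M24 Cfsg.Agent.H7.M24b Cfsg.Agent.H7.M24c
open scoped Pointwise

/-- multiplication by two -/
def u2 : (ZMod 23)ˣ := ⟨2, 12, by decide, by decide⟩

/-- multiplication by two on the points -/
def SS : Equiv.Perm GolayPt := Equiv.optionCongr (Units.mulLeft u2)

theorem SS_mem : SS ∈ M24 := mulLeft_mem u2 ⟨⟨5, 14, by decide, by decide⟩, by decide⟩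

theorem SS_none : SS none = none := rfl

theorem SS_some (j : ZMod 23) : SS (some j) = some (2 * j) := rfl

theorem SS_pow_none (n : ℕ) : (SS ^ n) none = none := by
  induction n with
  | zero => rfl
  | succ n ih => rw [pow_succ', Equiv.Perm.mul_apply, ih, SS_none]

theorem SS_pow_some (n : ℕ) (j : ZMod 23) : (SS ^ n) (some j) = some (2 ^ n * j) := by
  induction n with
  | zero => simp
  | succ n ih => rw [pow_succ', Equiv.Perm.mul_apply, ih, SS_some, pow_succ]; congr 1; ring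

/-- as an element of `M24` -/
def SM : M24 := ⟨SS, SS_mem⟩

instance fact11 : Fact (Nat.Prime 11) := ⟨by norm_num⟩

theorem orderOf_SM : orderOf SM = 11 := by
  rw [orderOf_eq_prime_iff]
  constructor
  · apply Subtype.ext
    apply Equiv.ext
    intro i
    show (SS ^ 11) i = i
    cases i with
    | none => exact SS_pow_none 11
    | some j =>
      rw [SS_pow_some]
      have : (2 : ZMod 23) ^ 11 = 1 := by decide
      rw [this, one_mul]
  · intro h
    have h1 : SS (some 1) = some 1 := by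
      have := congrArg (fun s : M24 => s.1 (some 1)) h
      exact this
    rw [SS_some] at h1
    have h2 : (2 : ZMod 23) * 1 = 1 := Option.some.inj h1
    revert h2
    decide

/-- the element of order 11 in `Co0` -/
noncomputable def ss : Co0 := pe SM

theorem orderOf_ss : orderOf ss = 11 := by
  rw [ss, orderOf_injective pe pe_injective, orderOf_SM]

theorem ss_coe (x : leechLattice) (i : GolayPt) : ((ss • x : leechLattice) : GolayPt → ℤ) i = (x : GolayPt → ℤ) (SS.symm i) :=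
  congrFun (pe_coe SM x) i

theorem cls_cases : ∀ j : ZMod 23, j = 0 ∨ (∃ i : Fin 11, j = 2 ^ (i : ℕ)) ∨ (∃ i : Fin 11, j = 2 ^ (i : ℕ) * 5) := by decide

theorem cls_ne1 : ∀ i : Fin 11, (2 : ZMod 23) ^ (i : ℕ) ≠ 0 := by decide

theorem cls_ne5 : ∀ i : Fin 11, (2 : ZMod 23) ^ (i : ℕ) * 5 ≠ 0 := by decide

theorem cls_disj : ∀ i k : Fin 11, (2 : ZMod 23) ^ (i : ℕ) ≠ 2 ^ (k : ℕ) * 5 := by decide

theorem fix_ss {x : leechLattice} (h : ss • x = x) (n : ℕ) (j : ZMod 23) :
    (x : GolayPt → ℤ) (some (2 ^ n * j)) = (x : GolayPt → ℤ) (some j) := by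
  have h1 : ∀ j : ZMod 23, (x : GolayPt → ℤ) (some (2 * j)) = (x : GolayPt → ℤ) (some j) := by
    intro j
    have h2 := ss_coe x (some (2 * j))
    rw [h] at h2
    rw [h2]
    have : SS.symm (some (2 * j)) = some j := by rw [Equiv.symm_apply_eq, SS_some]
    rw [this]
  induction n with
  | zero => rw [pow_zero, one_mul]
  | succ n ih => rw [pow_succ', mul_assoc, h1, ih]

/-- the class of a residue -/
def kl (j : ZMod 23) : Fin 3 := if j = 0 then 0 else if (∃ i : Fin 11, j = 2 ^ (i : ℕ)) then 1 else 2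

theorem val_kl {x : leechLattice} (h : ss • x = x) (j : ZMod 23) : (x : GolayPt → ℤ) (some j) =
    ![(x : GolayPt → ℤ) (some 0), (x : GolayPt → ℤ) (some 1), (x : GolayPt → ℤ) (some 5)] (kl j) := by
  rcases cls_cases j with h1 | ⟨i, h1⟩ | ⟨i, h1⟩
  · subst h1
    rfl
  · have h0 : j ≠ 0 := by
      rw [h1]
      exact cls_ne1 i
    have h2 : kl j = 1 := by rw [kl, if_neg h0, if_pos ⟨i, h1⟩]
    rw [h2]
    have := fix_ss h i 1
    rw [mul_one] at this
    rw [h1, this]
    rfl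
  · have h0 : j ≠ 0 := by
      rw [h1]
      exact cls_ne5 i
    have h2 : kl j = 2 := by
      rw [kl, if_neg h0, if_neg]
      rintro ⟨k, hk⟩
      rw [h1] at hk
      exact cls_disj k i hk.symm
    rw [h2, h1, fix_ss h i 5]
    rfl

theorem sum_kl (F : Fin 3 → ℤ) : ∑ j : ZMod 23, F (kl j) = F 0 + 11 * F 1 + 11 * F 2 := by
  rw [Finset.sum_comp F kl]
  have h0 : Finset.univ.image kl = ({0, 1, 2} : Finset (Fin 3)) := by decide
  rw [h0, Finset.sum_insert (by decide), Finset.sum_insert (by decide), Finset.sum_singleton]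
  have c0 : (Finset.univ.filter fun j => kl j = 0).card = 1 := by decide
  have c1 : (Finset.univ.filter fun j => kl j = 1).card = 11 := by decide
  have c2 : (Finset.univ.filter fun j => kl j = 2).card = 11 := by decide
  rw [c0, c1, c2]
  simp only [nsmul_eq_mul]
  push_cast
  ring

theorem nm_fix {x : leechLattice} (h : ss • x = x) : Nm x = (x : GolayPt → ℤ) none ^ 2 + (x : GolayPt → ℤ) (some 0) ^ 2 +
    11 * (x : GolayPt → ℤ) (some 1) ^ 2 + 11 * (x : GolayPt → ℤ) (some 5) ^ 2 := by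
  have h1 : Nm x = (x : GolayPt → ℤ) none ^ 2 + ∑ j : ZMod 23, (x : GolayPt → ℤ) (some j) ^ 2 := Fintype.sum_option _
  have h2 : ∑ j : ZMod 23, (x : GolayPt → ℤ) (some j) ^ 2 = ∑ j : ZMod 23, (fun k =>
    (![(x : GolayPt → ℤ) (some 0), (x : GolayPt → ℤ) (some 1), (x : GolayPt → ℤ) (some 5)] k) ^ 2) (kl j) :=
    Finset.sum_congr rfl fun j _ => by rw [val_kl h j]
  rw [h1, h2, sum_kl (fun k => (![(x : GolayPt → ℤ) (some 0), (x : GolayPt → ℤ) (some 1), (x : GolayPt → ℤ) (some 5)] k) ^ 2)]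
  simp only [Matrix.cons_val_zero, Matrix.cons_val_one, Matrix.cons_val]
  ring

theorem dtE_fix {x : leechLattice} (h : ss • x = x) : Dt x vE = 5 * (x : GolayPt → ℤ) none + (x : GolayPt → ℤ) (some 0) +
    11 * (x : GolayPt → ℤ) (some 1) + 11 * (x : GolayPt → ℤ) (some 5) := by
  have h1 : Dt x vE = (x : GolayPt → ℤ) none * (vE : GolayPt → ℤ) none +
    ∑ j : ZMod 23, (x : GolayPt → ℤ) (some j) * (vE : GolayPt → ℤ) (some j) := Fintype.sum_option _
  have h2 : ∑ j : ZMod 23, (x : GolayPt → ℤ) (some j) * (vE : GolayPt → ℤ) (some j) = ∑ j : ZMod 23, (fun k =>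
    (![(x : GolayPt → ℤ) (some 0), (x : GolayPt → ℤ) (some 1), (x : GolayPt → ℤ) (some 5)] k)) (kl j) :=
    Finset.sum_congr rfl fun j _ => by
      show _ = ![(x : GolayPt → ℤ) (some 0), (x : GolayPt → ℤ) (some 1), (x : GolayPt → ℤ) (some 5)] (kl j)
      rw [← val_kl h j, vE_apply, if_neg (by simp), mul_one]
  rw [h1, h2, sum_kl (fun k => (![(x : GolayPt → ℤ) (some 0), (x : GolayPt → ℤ) (some 1), (x : GolayPt → ℤ) (some 5)] k)),
    vE_apply, if_pos rfl]
  simp only [Matrix.cons_val_zero, Matrix.cons_val_one, Matrix.cons_val]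
  ring

theorem vU_eq : vU = O4 none (some 0) (by simp) := by
  apply Subtype.ext
  funext i
  show (vU : GolayPt → ℤ) i = (Pi.single none 4 : GolayPt → ℤ) i + (Pi.single (some 0) 4 : GolayPt → ℤ) i
  rw [vU_coe]
  revert i
  decide +kernel

theorem vZ_apply (i : GolayPt) : (vZ : GolayPt → ℤ) i = if i = none then 4 else if i = some 0 then -4 else 0 := by
  rw [vZ_coe]
  revert i
  decide +kernel

theorem vU_apply (i : GolayPt) : (vU : GolayPt → ℤ) i = if i = none then 4 else if i = some 0 then 4 else 0 := by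
  rw [vU_coe]
  revert i
  decide +kernel

theorem vU_add_vZ : vU + vZ = O8 none := by
  apply Subtype.ext
  funext i
  show (vU : GolayPt → ℤ) i + (vZ : GolayPt → ℤ) i = (Pi.single none 8 : GolayPt → ℤ) i
  rw [vU_apply, vZ_apply, Pi.single_apply]
  split
  · norm_num
  · split <;> norm_num

theorem vU_sub_vZ : vU - vZ = O8 (some 0) := by
  apply Subtype.ext
  funext i
  show (vU : GolayPt → ℤ) i - (vZ : GolayPt → ℤ) i = (Pi.single (some 0) 8 : GolayPt → ℤ) i
  rw [vU_apply, vZ_apply, Pi.single_apply]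
  by_cases h : i = none
  · subst h; simp
  · rw [if_neg h, if_neg h]
    split <;> norm_num

theorem dt_vU_x (x : leechLattice) : Dt x vU = 4 * (x : GolayPt → ℤ) none + 4 * (x : GolayPt → ℤ) (some 0) := by
  rw [vU_eq, dt_comm, dt_O4]

theorem dt_vZ_x (x : leechLattice) : Dt x vZ = 4 * (x : GolayPt → ℤ) none - 4 * (x : GolayPt → ℤ) (some 0) := by
  have h1 : Dt x (vU + vZ) = Dt x vU + Dt x vZ := dt_add' _ _ _
  rw [vU_add_vZ, dt_comm, dt_O8, dt_vU_x] at h1
  omega

theorem ss_fix_of {x : leechLattice} (h : ∀ j, (x : GolayPt → ℤ) (some (2 * j)) = (x : GolayPt → ℤ) (some j)) : ss • x = x := by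
  apply Subtype.ext
  funext i
  rw [ss_coe]
  cases i with
  | none =>
    have : SS.symm none = none := by rw [Equiv.symm_apply_eq, SS_none]
    rw [this]
  | some j =>
    have : SS.symm (some j) = some (12 * j) := by
      rw [Equiv.symm_apply_eq, SS_some, ← mul_assoc]
      have : (2 : ZMod 23) * 12 = 1 := by decide
      rw [this, one_mul]
    rw [this]
    have h2 := h (12 * j)
    rw [← mul_assoc] at h2
    have h3 : (2 : ZMod 23) * 12 = 1 := by decide
    rw [h3, one_mul] at h2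
    exact h2.symm

theorem ss_vE : ss • vE = vE := ss_fix_of fun j => by rw [vE_apply, vE_apply, if_neg (by simp), if_neg (by simp)]

theorem two_mul_zero_iff : ∀ j : ZMod 23, (some (2 * j) : GolayPt) = some 0 ↔ (some j : GolayPt) = some 0 := by decide

theorem ss_vU : ss • vU = vU := ss_fix_of fun j => by
  rw [vU_apply, vU_apply, if_neg (Option.some_ne_none _), if_neg (Option.some_ne_none _)]
  exact if_congr (two_mul_zero_iff j) rfl rfl

theorem ss_vZ : ss • vZ = vZ := ss_fix_of fun j => by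
  rw [vZ_apply, vZ_apply, if_neg (Option.some_ne_none _), if_neg (Option.some_ne_none _)]
  exact if_congr (two_mul_zero_iff j) rfl rfl

/-- an auxiliary bound -/
theorem small {a c d : ℤ} (h : 2 * a ^ 2 + 11 * c ^ 2 + 11 * d ^ 2 = 32) : (a = 4 ∨ a = -4) ∧ c = 0 ∧ d = 0 := by
  have hc : c ≤ 1 ∧ -1 ≤ c := by constructor <;> nlinarith [sq_nonneg a, sq_nonneg d]
  have hd : d ≤ 1 ∧ -1 ≤ d := by constructor <;> nlinarith [sq_nonneg a, sq_nonneg c]
  have ha : a ≤ 4 ∧ -4 ≤ a := by constructor <;> nlinarith [sq_nonneg c, sq_nonneg d]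
  obtain ⟨hc1, hc2⟩ := hc
  obtain ⟨hd1, hd2⟩ := hd
  obtain ⟨ha1, ha2⟩ := ha
  interval_cases c <;> interval_cases d <;> interval_cases a <;> first | (norm_num at h; done) | norm_num

theorem ext_fix {x y : leechLattice} (hx : ss • x = x) (hy : ss • y = y) (h0 : (x : GolayPt → ℤ) none = (y : GolayPt → ℤ) none)
    (h1 : (x : GolayPt → ℤ) (some 0) = (y : GolayPt → ℤ) (some 0)) (h2 : (x : GolayPt → ℤ) (some 1) = (y : GolayPt → ℤ) (some 1))
    (h3 : (x : GolayPt → ℤ) (some 5) = (y : GolayPt → ℤ) (some 5)) : x = y := by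
  apply Subtype.ext
  funext i
  cases i with
  | none => exact h0
  | some j => rw [val_kl hx, val_kl hy, h1, h2, h3]

theorem uniq_vZ {x : leechLattice} (h : ss • x = x) (hn : Nm x = 32) (h1 : Dt x vE = 16) (h2 : Dt x vU = 0) : x = vZ := by
  rw [nm_fix h] at hn
  rw [dtE_fix h] at h1
  rw [dt_vU_x] at h2
  have h3 : (x : GolayPt → ℤ) (some 0) = -(x : GolayPt → ℤ) none := by omega
  rw [h3] at hn h1
  obtain ⟨h4, h5, h6⟩ := small (a := (x : GolayPt → ℤ) none) (c := (x : GolayPt → ℤ) (some 1)) (d := (x : GolayPt → ℤ) (some 5))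
    (by rw [← hn]; ring)
  have h7 : (x : GolayPt → ℤ) none = 4 := by omega
  apply ext_fix h ss_vZ
  · rw [vZ_apply, if_pos rfl, h7]
  · rw [vZ_apply, if_neg (by simp), if_pos rfl, h3, h7]
  · rw [vZ_apply, if_neg (by simp), if_neg (by decide), h5]
  · rw [vZ_apply, if_neg (by simp), if_neg (by decide), h6]

theorem uniq_vU {x : leechLattice} (h : ss • x = x) (hn : Nm x = 32) (h1 : Dt x vE = 24) (h2 : Dt x vZ = 0) : x = vU := by
  rw [nm_fix h] at hn
  rw [dtE_fix h] at h1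
  rw [dt_vZ_x] at h2
  have h3 : (x : GolayPt → ℤ) (some 0) = (x : GolayPt → ℤ) none := by omega
  rw [h3] at hn h1
  obtain ⟨h4, h5, h6⟩ := small (a := (x : GolayPt → ℤ) none) (c := (x : GolayPt → ℤ) (some 1)) (d := (x : GolayPt → ℤ) (some 5))
    (by rw [← hn]; ring)
  have h7 : (x : GolayPt → ℤ) none = 4 := by omega
  apply ext_fix h ss_vU
  · rw [vU_apply, if_pos rfl, h7]
  · rw [vU_apply, if_neg (by simp), if_pos rfl, h3, h7]
  · rw [vU_apply, if_neg (by simp), if_neg (by decide), h5]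
  · rw [vU_apply, if_neg (by simp), if_neg (by decide), h6]

/-- permutations commuting with the element of order 11 -/
theorem comm_SS {σ : M24} (h : σ * SM = SM * σ) (h0 : σ.1 none = none) (h00 : σ.1 (some 0) = some 0) : ∃ k : ℕ, σ = SM ^ k := by
  have h1 : ∀ i, σ.1 (SS i) = SS (σ.1 i) := fun i => congrArg (fun s : M24 => s.1 i) h
  obtain ⟨a, ha⟩ : ∃ a : ZMod 23, σ.1 (some 1) = some a := by
    rcases hs : σ.1 (some 1) with _ | a
    · rw [← h0] at hs
      have := σ.1.injective hs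
      simp at this
    · exact ⟨a, rfl⟩
  have h2 : ∀ n : ℕ, σ.1 (some (2 ^ n)) = some (2 ^ n * a) := by
    intro n
    induction n with
    | zero => simpa using ha
    | succ n ih =>
      rw [pow_succ', ← SS_some, h1, ih, SS_some, mul_assoc]
  rcases cls_cases a with h3 | ⟨k, h3⟩ | ⟨k, h3⟩
  · exfalso
    rw [h3, ← h00] at ha
    have := σ.1.injective ha
    revert this
    decide
  · refine ⟨k, ?_⟩
    have h4 : (SM ^ (k : ℕ))⁻¹ * σ = 1 := by
      apply Subtype.ext
      apply fix_nine ((SM ^ (k : ℕ))⁻¹ * σ).2 (Finset.univ.image fun i : Fin 11 => (some (2 ^ (i : ℕ)) : GolayPt)) (by decide)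
      intro p hp
      rw [Finset.mem_image] at hp
      obtain ⟨i, _, rfl⟩ := hp
      show (SS ^ (k : ℕ))⁻¹ (σ.1 (some (2 ^ (i : ℕ)))) = some (2 ^ (i : ℕ))
      rw [h2, Equiv.Perm.inv_eq_iff_eq, SS_pow_some, h3, mul_comm]
    exact (inv_mul_eq_one.1 h4).symm
  · exfalso
    -- the dodecad of zero and the squares
    obtain ⟨D, hD⟩ : ∃ D : Finset GolayPt, D = ofMask 340831 := ⟨_, rfl⟩
    have hDm : D ∈ Cw := by
      rw [hD]
      exact ofMask_mem_supports (by norm_num) |>.2 (by rw [mem_codeL_iff]; decide +kernel)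
    have hσD : σ.1 • D ∈ Cw := (smul_mem_supports_iff σ.2).2 hDm
    have h5 := symmDiff_mem_supports hDm hσD
    have hDe : D = insert (some 0) (Finset.univ.image fun i : Fin 11 => (some (2 ^ (i : ℕ)) : GolayPt)) := by
      rw [hD]; decide +kernel
    have hDσ : σ.1 • D = insert (some 0) (Finset.univ.image fun i : Fin 11 => (some (2 ^ (i : ℕ) * 5) : GolayPt)) := by
      rw [hDe]
      ext p
      rw [Finset.mem_smul_finset]
      constructor
      · rintro ⟨q, hq, rfl⟩
        rw [Finset.mem_insert] at hq ⊢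
        rcases hq with rfl | hq
        · left; exact h00
        · right
          rw [Finset.mem_image] at hq ⊢
          obtain ⟨i, _, rfl⟩ := hq
          have h6 : ∀ i k : Fin 11, ∃ l : Fin 11, (2 : ZMod 23) ^ (l : ℕ) * 5 = 2 ^ (i : ℕ) * (2 ^ (k : ℕ) * 5) := by decide
          obtain ⟨l, hl⟩ := h6 i k
          refine ⟨l, Finset.mem_univ _, ?_⟩
          show _ = σ.1 (some (2 ^ (i : ℕ)))
          rw [h2, h3, hl]
      · intro hp
        rw [Finset.mem_insert] at hp
        rcases hp with rfl | hp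
        · exact ⟨some 0, Finset.mem_insert_self _ _, h00⟩
        · rw [Finset.mem_image] at hp
          obtain ⟨l, _, rfl⟩ := hp
          have h6 : ∀ l k : Fin 11, ∃ i : Fin 11, (2 : ZMod 23) ^ (l : ℕ) * 5 = 2 ^ (i : ℕ) * (2 ^ (k : ℕ) * 5) := by decide
          obtain ⟨i, hi⟩ := h6 l k
          refine ⟨some (2 ^ (i : ℕ)), Finset.mem_insert_of_mem (Finset.mem_image_of_mem _ (Finset.mem_univ _)), ?_⟩
          show σ.1 (some (2 ^ (i : ℕ))) = _
          rw [h2, h3, hi]
    rw [hDσ, hDe] at h5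
    have h6 := supports_weight h5
    have h7 : (symmDiff (insert (some 0) (Finset.univ.image fun i : Fin 11 => (some (2 ^ (i : ℕ)) : GolayPt)))
      (insert (some 0) (Finset.univ.image fun i : Fin 11 => (some (2 ^ (i : ℕ) * 5) : GolayPt)))).card = 22 := by decide +kernel
    rw [h7] at h6
    omega

/-- the stabiliser of `vE`, `vU`, `vZ` -/
theorem m22_of {g : Co0} (h1 : g • vE = vE) (h2 : g • vU = vU) (h3 : g • vZ = vZ) : ∃ σ : M24, g = pe σ ∧ σ.1 none = none ∧
    σ.1 (some 0) = some 0 := by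
  have h4 : g • O8 none = O8 none := by rw [← vU_add_vZ, smul_add'', h2, h3]
  have h5 : g • O8 (some 0) = O8 (some 0) := by rw [← vU_sub_vZ, smul_sub'', h2, h3]
  obtain ⟨σ, hσ, h6⟩ := mono_fix h4 h1
  refine ⟨σ, hσ, h6, ?_⟩
  rw [hσ, pe_O8] at h5
  exact O8_inj h5

theorem cent_ss {g : Co0} (h1 : g • vE = vE) (h2 : g • vU = vU) (h3 : g • vZ = vZ) (h : g * ss = ss * g) :
    ∃ k : ℕ, g = ss ^ k := by
  obtain ⟨σ, hσ, h4, h5⟩ := m22_of h1 h2 h3
  have h6 : σ * SM = SM * σ := by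
    apply pe_injective
    rw [map_mul, map_mul, ← hσ]
    exact h
  obtain ⟨k, hk⟩ := comm_SS h6 h4 h5
  exact ⟨k, by rw [hσ, hk, map_pow]; rfl⟩

theorem cent_mcl {g : Co0} (h1 : g • vE = vE) (h2 : g • vU = vU) (h : g * ss = ss * g) : ∃ k : ℕ, g = ss ^ k := by
  apply cent_ss h1 h2 _ h
  apply uniq_vZ
  · rw [← mul_smul, ← h, mul_smul, ss_vZ]
  · rw [nm_smul]; exact vZ_norm
  · have e := dt_smul g vZ vE
    rw [h1] at e
    exact e.trans dt_vE_vZ
  · have e := dt_smul g vZ vU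
    rw [h2] at e
    exact e.trans dt_vZ.2.2

theorem cent_hs {g : Co0} (h1 : g • vE = vE) (h2 : g • vZ = vZ) (h : g * ss = ss * g) : ∃ k : ℕ, g = ss ^ k := by
  refine cent_ss h1 ?_ h2 h
  apply uniq_vU
  · rw [← mul_smul, ← h, mul_smul, ss_vU]
  · rw [nm_smul]; exact vU_norm
  · have e := dt_smul g vU vE
    rw [h1] at e
    exact e.trans dt_vE_vU
  · have e := dt_smul g vU vZ
    rw [h2] at e
    exact e.trans dt_vU.2.2

end Cfsg.Agent.H7.CoM
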