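import Mathlib
import Cfsg.Agent.H7_CoM
import Cfsg.Agent.H7_M24d

set_option autoImplicit false

/-!
Simplicity of `McL` and `HS`.
-/

namespace Cfsg.Agent.H7.CoS3

open Cfsg Cfsg.Agent.H7.Golay Cfsg.Agent.H7.Oct Cfsg.Agent.H7.L1 Cfsg.Agent.H7.L2 Cfsg.Agent.H7.L3 Cfsg.Agent.H7.L4 Cfsg.Agent.H7.L5
  Cfsg.Agent.H7.L6 Cfsg.Agent.H7.L7 Cfsg.Agent.H7.L8 Cfsg.Agent.H7.L9 Cfsg.Agent.H7.L10 Cfsg.Agent.H7.L11 Cfsg.Agent.H7.LV
  Cfsg.Agent.H7.LV8 Cfsg.Agent.H7.Co Cfsg.Agent.H7.Co2 Cfsg.Agent.H7.Co3 Cfsg.Agent.H7.Co4 Cfsg.Agent.H7.Co5 Cfsg.Agent.H7.Co6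
  Cfsg.Agent.H7.Co7 Cfsg.Agent.H7.CoT Cfsg.Agent.H7.Crit Cfsg.Agent.H7.CoS Cfsg.Agent.H7.CoM
  Cfsg.Agent.H7.M24 Cfsg.Agent.H7.M24b Cfsg.Agent.H7.M24c Cfsg.Agent.H7.M24d
open scoped Pointwise

/-- orders of two-point stabilisers -/
theorem card_inf {u x : leechLattice} (m n : ℕ) (hG : Nat.card (MulAction.stabilizer Co0 u) = m * n) (hm : 0 < m)
    (ho : (MulAction.orbit (MulAction.stabilizer Co0 u) x).ncard = m) :
    Nat.card ↥(MulAction.stabilizer Co0 u ⊓ MulAction.stabilizer Co0 x) = n := by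
  have h1 := Subgroup.index_mul_card (MulAction.stabilizer (MulAction.stabilizer Co0 u) x)
  rw [MulAction.index_stabilizer, ho, hG] at h1
  have h2 := Nat.eq_of_mul_eq_mul_left hm h1
  rw [← h2]
  exact (card_stab (MulAction.stabilizer Co0 u) x).symm

/-- `McL` -/
abbrev GM : Subgroup Co0 := MulAction.stabilizer Co0 vE ⊓ MulAction.stabilizer Co0 vU

/-- `HS` -/
abbrev GH : Subgroup Co0 := MulAction.stabilizer Co0 vE ⊓ MulAction.stabilizer Co0 vZ

theorem card_GM : Nat.card GM = 898128000 :=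
  card_inf 552 898128000 (card_G3.trans (by norm_num)) (by norm_num) (by
    have := cnt48_24 vE nm_vE
    rw [← this]
    exact congrArg Set.ncard orbit_g3)

theorem orbit_g3Z : MulAction.orbit G3 vZ = {y : leechLattice | Nm y = 32 ∧ Dt y vE = 16} := by
  ext y
  constructor
  · rintro ⟨g, rfl⟩
    refine ⟨(nm_smul g vZ).trans vZ_norm, ?_⟩
    have h := dt_smul (g : Co0) vZ vE
    rw [g3_smul] at h
    exact h.trans dt_vE_vZ
  · rintro ⟨h1, h2⟩
    obtain ⟨g, g1, g2⟩ := pair48_16 vE vZ vE y nm_vE nm_vE vZ_norm h1 dt_vE_vZ h2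
    exact ⟨⟨g, g1⟩, g2⟩

theorem cnt48_16 (v : leechLattice) (hv : Nm v = 48) : {x : leechLattice | Nm x = 32 ∧ Dt x v = 16}.ncard = 11178 := by
  rw [← cnt48_m16 v hv, ← Set.ncard_image_of_injective {x : leechLattice | Nm x = 32 ∧ Dt x v = 16} neg_injective]
  congr 1
  ext y
  constructor
  · rintro ⟨z, ⟨h1, h2⟩, rfl⟩
    exact ⟨(nm_neg z).trans h1, by rw [dt_neg, h2]⟩
  · rintro ⟨h1, h2⟩
    exact ⟨-y, ⟨(nm_neg y).trans h1, by rw [dt_neg, h2, neg_neg]⟩, neg_neg y⟩

theorem card_GH : Nat.card GH = 44352000 :=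
  card_inf 11178 44352000 (card_G3.trans (by norm_num)) (by norm_num) (by
    rw [← cnt48_16 vE nm_vE]
    exact congrArg Set.ncard orbit_g3Z)

theorem gm_E (g : GM) : (g : Co0) • vE = vE := g.2.1

theorem gm_U (g : GM) : (g : Co0) • vU = vU := g.2.2

theorem gh_E (g : GH) : (g : Co0) • vE = vE := g.2.1

theorem gh_Z (g : GH) : (g : Co0) • vZ = vZ := g.2.2

section mcl

/-- the element of order 11 in `McL` -/
noncomputable def sM : GM := ⟨ss, ss_vE, ss_vU⟩

theorem orderOf_sM : orderOf sM = 11 := by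
  rw [← orderOf_ss]
  exact (Subgroup.orderOf_mk ss _)

theorem cent_sM (g : GM) (h : g * sM = sM * g) : g ∈ Subgroup.zpowers sM := by
  have h1 : (g : Co0) * ss = ss * g := congrArg Subtype.val h
  obtain ⟨k, hk⟩ := cent_mcl (gm_E g) (gm_U g) h1
  rw [Subgroup.mem_zpowers_iff]
  refine ⟨k, Subtype.ext ?_⟩
  rw [zpow_natCast]
  exact hk.symm

/-- the 275 vectors -/
def O275 : Set leechLattice := {y | Nm y = 32 ∧ Dt y vE = 24 ∧ Dt y vU = 16}

theorem orbit_gm : MulAction.orbit GM vX = O275 := by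
  ext y
  constructor
  · rintro ⟨g, rfl⟩
    refine ⟨(nm_smul g vX).trans dt_vX.1, ?_, ?_⟩
    · have h := dt_smul (g : Co0) vX vE
      rw [gm_E] at h
      exact h.trans dt_vX.2.1
    · have h := dt_smul (g : Co0) vX vU
      rw [gm_U] at h
      exact h.trans dt_vX.2.2
  · rintro ⟨h1, h2, h3⟩
    obtain ⟨g, g1, g2, g3⟩ := mcl_trans vE vU vX y nm_vE vU_norm dt_vE_vU dt_vX.1 dt_vX.2.1 dt_vX.2.2 h1 h2 h3
    exact ⟨⟨g, g1, g2⟩, g3⟩

theorem dots275 {x y : leechLattice} (hx : x ∈ O275) (hy : y ∈ O275) : y = x ∨ Dt y x = 8 ∨ Dt y x = 16 := by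
  by_cases h : y = x
  · exact Or.inl h
  · exact Or.inr (mcl_dots vE vU x y nm_vE vU_norm dt_vE_vU hx.1 hx.2.1 hx.2.2 hy.1 hy.2.1 hy.2.2 h)

/-- the numbers -/
def cM (k : ℤ) : ℕ := if k = 32 then 1 else if k = 8 then 112 else 162

/-- the values -/
def LM : Finset ℤ := {32, 8, 16}

theorem cntM (k : ℤ) (hk : k ∈ LM) : {y | y ∈ MulAction.orbit GM vX ∧ Dt y vX = k}.ncard = cM k := by
  rw [orbit_gm]
  have hX : vX ∈ O275 := dt_vX
  obtain ⟨a1, a2⟩ := mcl_count3 vE vU vX nm_vE vU_norm dt_vE_vU dt_vX.1 dt_vX.2.1 dt_vX.2.2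
  simp only [LM, Finset.mem_insert, Finset.mem_singleton] at hk
  rcases hk with rfl | rfl | rfl
  · have : {y | y ∈ O275 ∧ Dt y vX = 32} = {vX} := by
      ext y
      rw [Set.mem_ofPred_eq, Set.mem_singleton_iff]
      constructor
      · rintro ⟨h1, h2⟩
        rcases dots275 hX h1 with h | h | h
        · exact h
        · omega
        · omega
      · rintro rfl
        exact ⟨hX, by rw [dt_self]; exact dt_vX.1⟩
    rw [this, Set.ncard_singleton]; rfl
  · refine Eq.trans ?_ a1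
    congr 1
    ext y
    constructor
    · rintro ⟨⟨h1, h2, h3⟩, h4⟩; exact ⟨h1, h2, h3, h4⟩
    · rintro ⟨h1, h2, h3, h4⟩; exact ⟨⟨h1, h2, h3⟩, h4⟩
  · refine Eq.trans ?_ a2
    congr 1
    ext y
    constructor
    · rintro ⟨⟨h1, h2, h3⟩, h4⟩; exact ⟨h1, h2, h3, h4⟩
    · rintro ⟨h1, h2, h3, h4⟩; exact ⟨⟨h1, h2, h3⟩, h4⟩

theorem valM (y : leechLattice) (hy : y ∈ MulAction.orbit GM vX) : Dt y vX ∈ LM := by
  rw [orbit_gm] at hy
  simp only [LM, Finset.mem_insert, Finset.mem_singleton]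
  rcases dots275 dt_vX hy with h | h | h
  · left; rw [h, dt_self]; exact dt_vX.1
  · right; left; exact h
  · right; right; exact h

theorem trM (y z : leechLattice) (hy : y ∈ MulAction.orbit GM vX) (hz : z ∈ MulAction.orbit GM vX)
    (h : Dt y vX = Dt z vX) : ∃ g : GM, g • vX = vX ∧ g • y = z := by
  rw [orbit_gm] at hy hz
  have h0 : Dt vX vX = 32 := by rw [dt_self]; exact dt_vX.1
  rcases dots275 dt_vX hy with h1 | h1
  · rcases dots275 dt_vX hz with h2 | h2
    · exact ⟨1, one_smul _ _, by rw [one_smul, h1, h2]⟩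
    · rw [h1, h0] at h; omega
  · obtain ⟨g, g1, g2, g3, g4⟩ := mcl_trans3 vE vU vX y z (Dt y vX) h1 nm_vE vU_norm dt_vE_vU dt_vX.1 dt_vX.2.1 dt_vX.2.2
      hy.1 hy.2.1 hy.2.2 rfl hz.1 hz.2.1 hz.2.2 h.symm
    exact ⟨⟨g, g1, g2⟩, g3, g4⟩

theorem mcl_div (N : Subgroup GM) (hN : N.Normal) (hne : N ≠ ⊥) : 11 ∣ Nat.card N := by
  obtain ⟨S, hS, hS1, hS2, hS3⟩ := block vX (N ⊔ MulAction.stabilizer GM vX) le_sup_right
    (by rw [orbit_gm]; exact (finite_nm 32).subset fun y hy => hy.1) (fun y => Dt y vX) LM valM (fun y hy z hz h => trM y z hy hz h)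
  rw [Finset.sum_congr rfl fun k hk => cntM k (hS hk)] at hS2
  have h275 : (MulAction.orbit GM vX).ncard = 275 := by
    rw [orbit_gm]; exact cnt_275
  rw [hS2, h275] at hS3
  rw [orbit_normal_sup] at hS2
  have hcases : ∑ k ∈ S, cM k = 275 ∨ S = {32} := by
    have : ∀ S ∈ LM.powerset, (∑ k ∈ S, cM k) ∣ 275 → ∑ k ∈ S, cM k = 275 ∨ S = {32} := by decide +kernel
    exact this S (Finset.mem_powerset.2 hS) hS3
  rcases hcases with hc | hc
  · rw [hc] at hS2
    have h1 : (MulAction.orbit N vX).ncard ∣ Nat.card N := by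
      rw [← MulAction.index_stabilizer]; exact Subgroup.index_dvd_card _
    rw [hS2] at h1
    exact (by norm_num : 11 ∣ 275).trans h1
  · exfalso
    apply hne
    have h1 : ∀ n ∈ N, n • vX = vX := by
      intro n hn
      have h1 : n • vX ∈ MulAction.orbit GM vX := ⟨n, rfl⟩
      have h2 : n • vX ∈ MulAction.orbit ↥(N ⊔ MulAction.stabilizer GM vX) vX := by
        rw [orbit_normal_sup]; exact ⟨⟨n, hn⟩, rfl⟩
      have h3 := (hS1 _ h1).1 h2
      rw [orbit_gm] at h1
      rw [hc, Finset.mem_singleton] at h3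
      rcases dots275 dt_vX h1 with h | h | h
      · exact h
      · omega
      · omega
    rw [eq_bot_iff]
    intro n hn
    rw [Subgroup.mem_bot]
    apply Subtype.ext
    apply triv_of_fix (gm_E n)
    intro j
    by_cases hj : j = 0
    · subst hj
      rw [← vU_eq]; exact gm_U n
    · have h2 : O4 none (some j) (by simp) ∈ MulAction.orbit GM vX := by
        rw [orbit_gm]
        refine ⟨O4_nm _ _ _, ?_, ?_⟩
        · rw [dt_O4, vE_apply, vE_apply, if_pos rfl, if_neg (by simp)]; norm_num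
        · rw [dt_O4, vU_apply, vU_apply, if_pos rfl, if_neg (by simp), if_neg (by simpa using hj)]; norm_num
      obtain ⟨g, hg⟩ := h2
      have hg' : g • vX = O4 none (some j) (by simp) := hg
      have h3 := h1 _ (hN.conj_mem n hn g⁻¹)
      rw [inv_inv, mul_smul, mul_smul, hg', inv_smul_eq_iff, hg'] at h3
      exact h3

theorem mcl_simple : IsSimpleGroup GM := by
  refine simple_crit 11 5 81648000 (by norm_num) sM orderOf_sM cent_sM (by rw [card_GM]) (by norm_num) ?_ (by norm_num)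
    mcl_div
  intro k hk _ h
  have h1 : k ∈ Nat.divisors 10 := Nat.mem_divisors.2 ⟨hk, by norm_num⟩
  have h2 : Nat.divisors 10 = {1, 2, 5, 10} := by decide +kernel
  rw [h2] at h1
  simp only [Finset.mem_insert, Finset.mem_singleton] at h1
  rcases h1 with rfl | rfl | rfl | rfl
  · norm_num at h
  · norm_num at h
  · rfl
  · norm_num at h

end mcl

section hs

/-- the 100 vectors -/
def O100 : Set leechLattice := {y | Nm y = 32 ∧ Dt y vE = 24 ∧ Dt y vZ = 0}

theorem orbit_gh : MulAction.orbit GH vU = O100 := by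
  ext y
  constructor
  · rintro ⟨g, rfl⟩
    refine ⟨(nm_smul g vU).trans dt_vU.1, ?_, ?_⟩
    · have h := dt_smul (g : Co0) vU vE
      rw [gh_E] at h
      exact h.trans dt_vU.2.1
    · have h := dt_smul (g : Co0) vU vZ
      rw [gh_Z] at h
      exact h.trans dt_vU.2.2
  · rintro ⟨h1, h2, h3⟩
    obtain ⟨g, g1, g2, g3⟩ := hs_trans vE vZ vU y nm_vE vZ_norm dt_vE_vZ dt_vU.1 dt_vU.2.1 dt_vU.2.2 h1 h2 h3
    exact ⟨⟨g, g1, g2⟩, g3⟩

theorem dots100 {x y : leechLattice} (hx : x ∈ O100) (hy : y ∈ O100) : y = x ∨ Dt y x = 8 ∨ Dt y x = 16 := by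
  by_cases h : y = x
  · exact Or.inl h
  · exact Or.inr (hs_dots vE vZ x y nm_vE vZ_norm dt_vE_vZ hx.1 hx.2.1 hx.2.2 hy.1 hy.2.1 hy.2.2 h)

/-- the numbers -/
def cH (k : ℤ) : ℕ := if k = 32 then 1 else if k = 8 then 22 else 77

theorem cntH (k : ℤ) (hk : k ∈ LM) : {y | y ∈ MulAction.orbit GH vU ∧ Dt y vU = k}.ncard = cH k := by
  rw [orbit_gh]
  have hX : vU ∈ O100 := dt_vU
  obtain ⟨a1, a2⟩ := hs_count3 vE vZ vU nm_vE vZ_norm dt_vE_vZ dt_vU.1 dt_vU.2.1 dt_vU.2.2
  simp only [LM, Finset.mem_insert, Finset.mem_singleton] at hk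
  rcases hk with rfl | rfl | rfl
  · have : {y | y ∈ O100 ∧ Dt y vU = 32} = {vU} := by
      ext y
      rw [Set.mem_ofPred_eq, Set.mem_singleton_iff]
      constructor
      · rintro ⟨h1, h2⟩
        rcases dots100 hX h1 with h | h | h
        · exact h
        · omega
        · omega
      · rintro rfl
        exact ⟨hX, by rw [dt_self]; exact dt_vU.1⟩
    rw [this, Set.ncard_singleton]; rfl
  · refine Eq.trans ?_ a1
    congr 1
    ext y
    constructor
    · rintro ⟨⟨h1, h2, h3⟩, h4⟩; exact ⟨h1, h2, h3, h4⟩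
    · rintro ⟨h1, h2, h3, h4⟩; exact ⟨⟨h1, h2, h3⟩, h4⟩
  · refine Eq.trans ?_ a2
    congr 1
    ext y
    constructor
    · rintro ⟨⟨h1, h2, h3⟩, h4⟩; exact ⟨h1, h2, h3, h4⟩
    · rintro ⟨h1, h2, h3, h4⟩; exact ⟨⟨h1, h2, h3⟩, h4⟩

theorem valH (y : leechLattice) (hy : y ∈ MulAction.orbit GH vU) : Dt y vU ∈ LM := by
  rw [orbit_gh] at hy
  simp only [LM, Finset.mem_insert, Finset.mem_singleton]
  rcases dots100 dt_vU hy with h | h | h
  · left; rw [h, dt_self]; exact dt_vU.1
  · right; left; exact h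
  · right; right; exact h

theorem trH (y z : leechLattice) (hy : y ∈ MulAction.orbit GH vU) (hz : z ∈ MulAction.orbit GH vU)
    (h : Dt y vU = Dt z vU) : ∃ g : GH, g • vU = vU ∧ g • y = z := by
  rw [orbit_gh] at hy hz
  have h0 : Dt vU vU = 32 := by rw [dt_self]; exact dt_vU.1
  rcases dots100 dt_vU hy with h1 | h1
  · rcases dots100 dt_vU hz with h2 | h2
    · exact ⟨1, one_smul _ _, by rw [one_smul, h1, h2]⟩
    · rw [h1, h0] at h; omega
  · obtain ⟨g, g1, g2, g3, g4⟩ := hs_trans3 vE vZ vU y z (Dt y vU) h1 nm_vE vZ_norm dt_vE_vZ dt_vU.1 dt_vU.2.1 dt_vU.2.2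
      hy.1 hy.2.1 hy.2.2 rfl hz.1 hz.2.1 hz.2.2 h.symm
    exact ⟨⟨g, g1, g2⟩, g3, g4⟩

theorem card_orbit_gh : (MulAction.orbit GH vU).ncard = 100 := by
  rw [orbit_gh]; exact hs_count vE vZ nm_vE vZ_norm dt_vE_vZ

theorem hs_normal (N : Subgroup GH) (hN : N.Normal) (hne : N ≠ ⊥) : (MulAction.orbit N vU).ncard = 100 := by
  obtain ⟨S, hS, hS1, hS2, hS3⟩ := block vU (N ⊔ MulAction.stabilizer GH vU) le_sup_right
    (by rw [orbit_gh]; exact (finite_nm 32).subset fun y hy => hy.1) (fun y => Dt y vU) LM valH (fun y hy z hz h => trH y z hy hz h)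
  rw [Finset.sum_congr rfl fun k hk => cntH k (hS hk)] at hS2
  rw [hS2, card_orbit_gh] at hS3
  rw [orbit_normal_sup] at hS2
  have hcases : ∑ k ∈ S, cH k = 100 ∨ S = {32} := by
    have : ∀ S ∈ LM.powerset, (∑ k ∈ S, cH k) ∣ 100 → ∑ k ∈ S, cH k = 100 ∨ S = {32} := by decide +kernel
    exact this S (Finset.mem_powerset.2 hS) hS3
  rcases hcases with hc | hc
  · rw [hS2, hc]
  · exfalso
    apply hne
    have h1 : ∀ n ∈ N, n • vU = vU := by
      intro n hn
      have h1 : n • vU ∈ MulAction.orbit GH vU := ⟨n, rfl⟩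
      have h2 : n • vU ∈ MulAction.orbit ↥(N ⊔ MulAction.stabilizer GH vU) vU := by
        rw [orbit_normal_sup]; exact ⟨⟨n, hn⟩, rfl⟩
      have h3 := (hS1 _ h1).1 h2
      rw [orbit_gh] at h1
      rw [hc, Finset.mem_singleton] at h3
      rcases dots100 dt_vU h1 with h | h | h
      · exact h
      · omega
      · omega
    rw [eq_bot_iff]
    intro n hn
    rw [Subgroup.mem_bot]
    apply Subtype.ext
    apply triv_of_fix (gh_E n)
    intro j
    by_cases hj : j = 0
    · subst hj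
      rw [← vU_eq]; exact h1 n hn
    · have hj4 : Nm (O4 none (some j) (by simp)) = 32 ∧ Dt (O4 none (some j) (by simp)) vE = 24 := by
        refine ⟨O4_nm _ _ _, ?_⟩
        rw [dt_O4, vE_apply, vE_apply, if_pos rfl, if_neg (by simp)]; norm_num
      have h4 := vE_sub hj4
      have h2 : vE - O4 none (some j) (by simp) ∈ MulAction.orbit GH vU := by
        rw [orbit_gh]
        refine ⟨h4.1, h4.2.1, ?_⟩
        rw [dt_sub, dt_comm vE vZ, dt_vE_vZ, dt_O4, vZ_apply, vZ_apply, if_pos rfl, if_neg (by simp), if_neg (by simpa using hj)]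
        norm_num
      obtain ⟨g, hg⟩ := h2
      have hg' : g • vU = vE - O4 none (some j) (by simp) := hg
      have h3 := h1 _ (hN.conj_mem n hn g⁻¹)
      rw [inv_inv, mul_smul, mul_smul, hg', inv_smul_eq_iff, hg'] at h3
      have h5 : (n : Co0) • (vE - O4 none (some j) (by simp)) = vE - O4 none (some j) (by simp) := h3
      rw [smul_sub'', gh_E] at h5
      exact sub_right_injective h5

/-- the point stabiliser in `HS` is `M22` -/
theorem stab_hs_equiv : Nonempty (MulAction.stabilizer GH vU ≃*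
    ↥(MulAction.stabilizer M24 (none : GolayPt) ⊓ MulAction.stabilizer M24 (some 0 : GolayPt))) := by
  have hfix : ∀ σ : M24, σ.1 none = none → σ.1 (some 0) = some 0 → pe σ • vE = vE ∧ pe σ • vZ = vZ ∧ pe σ • vU = vU := by
    intro σ h0 h1
    have s0 : ∀ i, σ.1.symm i = none ↔ i = none := by
      intro i; rw [Equiv.symm_apply_eq, h0]
    have s1 : ∀ i, σ.1.symm i = some 0 ↔ i = some 0 := by
      intro i; rw [Equiv.symm_apply_eq, h1]
    refine ⟨?_, ?_, ?_⟩
    · apply Subtype.ext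
      rw [pe_coe]
      funext i
      rw [vE_apply, vE_apply]
      exact if_congr (s0 i) rfl rfl
    · apply Subtype.ext
      rw [pe_coe]
      funext i
      rw [vZ_apply, vZ_apply]
      exact if_congr (s0 i) rfl (if_congr (s1 i) rfl rfl)
    · apply Subtype.ext
      rw [pe_coe]
      funext i
      rw [vU_apply, vU_apply]
      exact if_congr (s0 i) rfl (if_congr (s1 i) rfl rfl)
  let f : ↥(MulAction.stabilizer M24 (none : GolayPt) ⊓ MulAction.stabilizer M24 (some 0 : GolayPt)) →*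
      MulAction.stabilizer GH vU :=
    { toFun := fun σ => ⟨⟨pe σ.1, (hfix σ.1 σ.2.1 σ.2.2).1, (hfix σ.1 σ.2.1 σ.2.2).2.1⟩, (hfix σ.1 σ.2.1 σ.2.2).2.2⟩
      map_one' := by
        apply Subtype.ext
        apply Subtype.ext
        exact map_one pe
      map_mul' := fun σ τ => by
        apply Subtype.ext
        apply Subtype.ext
        exact map_mul pe σ.1 τ.1 }
  have hf : Function.Bijective f := by
    constructor
    · intro σ τ h
      apply Subtype.ext
      apply pe_injective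
      exact congrArg (fun x : MulAction.stabilizer GH vU => ((x : GH) : Co0)) h
    · rintro ⟨⟨g, h1, h2⟩, h3⟩
      obtain ⟨σ, hσ, a1, a2⟩ := m22_of h1 h3 h2
      refine ⟨⟨σ, a1, a2⟩, ?_⟩
      apply Subtype.ext
      apply Subtype.ext
      exact hσ.symm
  exact ⟨(MulEquiv.ofBijective f hf).symm⟩

theorem stab_hs_simple : IsSimpleGroup (MulAction.stabilizer GH vU) := by
  obtain ⟨e⟩ := stab_hs_equiv
  obtain ⟨e'⟩ := stab_two_equiv none (some 0) (by simp)
  have := M22_simple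
  exact (MulEquiv.isSimpleGroup_congr (e.trans e')).2 this

theorem hs_simple : IsSimpleGroup GH := by
  have hntr : Nontrivial GH := by
    rw [← Finite.one_lt_card_iff_nontrivial, card_GH]
    norm_num
  refine ⟨fun N hN => ?_⟩
  by_cases hne : N = ⊥
  · exact Or.inl hne
  right
  have h100 := hs_normal N hN hne
  have horb : MulAction.orbit N vU = MulAction.orbit GH vU := by
    apply Set.eq_of_subset_of_ncard_le
    · rintro _ ⟨n, rfl⟩; exact ⟨n, rfl⟩
    · rw [h100, card_orbit_gh]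
    · rw [orbit_gh]; exact (finite_nm 32).subset fun y hy => hy.1
  have hsn : (N.subgroupOf (MulAction.stabilizer GH vU)).Normal := hN.subgroupOf _
  rcases stab_hs_simple.eq_bot_or_eq_top_of_normal _ hsn with hb | ht
  · exfalso
    have htriv : ∀ n ∈ N, n • vU = vU → n = 1 := by
      intro n hn h1
      have h2 : (⟨n, h1⟩ : MulAction.stabilizer GH vU) ∈ N.subgroupOf (MulAction.stabilizer GH vU) := hn
      rw [hb, Subgroup.mem_bot] at h2
      exact congrArg Subtype.val h2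
    have hcard : Nat.card N = 100 := by
      have h1 : MulAction.stabilizer N vU = ⊥ := by
        rw [eq_bot_iff]
        intro m hm
        rw [Subgroup.mem_bot]
        exact Subtype.ext (htriv m m.2 hm)
      rw [card_of_trivial_stab vU h1, h100]
    have f5 : Fact (Nat.Prime 5) := ⟨by norm_num⟩
    obtain ⟨P⟩ := (inferInstance : Nonempty (Sylow 5 N))
    have hP : Nat.card P = 25 := by
      rw [P.card_eq_multiplicity, hcard]
      have : (100 : ℕ).factorization 5 = 2 := by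
        rw [show (100 : ℕ) = 5 ^ 2 * 4 by norm_num, Nat.factorization_mul (by norm_num) (by norm_num),
          Nat.factorization_pow]
        simp [Nat.Prime.factorization f5.out, Nat.factorization_eq_zero_of_not_dvd]
      rw [this]
      norm_num
    have hidx : (P : Subgroup N).index = 4 := by
      have := Subgroup.index_mul_card (P : Subgroup N)
      rw [hcard, show Nat.card (P : Subgroup N) = 25 from hP] at this
      omega
    have hn5 : Nat.card (Sylow 5 N) = 1 := by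
      have h1 := card_sylow_modEq_one 5 N
      have h2 : Nat.card (Sylow 5 N) ∣ 4 := by
        rw [← hidx]; exact P.card_dvd_index
      have h3 := Nat.le_of_dvd (by norm_num) h2
      have h4 : Nat.card (Sylow 5 N) % 5 = 1 % 5 := h1
      omega
    have hsub : Subsingleton (Sylow 5 N) := (Nat.card_eq_one_iff_unique.1 hn5).1
    have hPn : (P : Subgroup N).Normal := Sylow.normal_of_subsingleton P
    have hPc : (P : Subgroup N).Characteristic := Sylow.characteristic_of_normal P hPn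
    have hQ : ((P : Subgroup N).map N.subtype).Normal := inferInstance
    have hQc : Nat.card ((P : Subgroup N).map N.subtype) = 25 := by
      rw [← hP]
      exact Nat.card_congr ((P : Subgroup N).equivMapOfInjective N.subtype N.subtype_injective).symm.toEquiv
    have hQne : (P : Subgroup N).map N.subtype ≠ ⊥ := by
      intro h
      rw [h, Subgroup.card_bot] at hQc
      norm_num at hQc
    have h1 := hs_normal _ hQ hQne
    have h2 : (MulAction.orbit ((P : Subgroup N).map N.subtype) vU).ncard ∣ Nat.card ((P : Subgroup N).map N.subtype) := by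
      rw [← MulAction.index_stabilizer]; exact Subgroup.index_dvd_card _
    rw [h1, hQc] at h2
    norm_num at h2
  · rw [eq_top_iff]
    intro g _
    have h1 : g • vU ∈ MulAction.orbit N vU := by rw [horb]; exact ⟨g, rfl⟩
    obtain ⟨n, hn⟩ := h1
    have hn' : (n : GH) • vU = g • vU := hn
    have h2 : (n : GH)⁻¹ * g ∈ MulAction.stabilizer GH vU := by
      rw [MulAction.mem_stabilizer_iff, mul_smul, ← hn', inv_smul_smul]
    have h3 : (⟨(n : GH)⁻¹ * g, h2⟩ : MulAction.stabilizer GH vU) ∈ N.subgroupOf (MulAction.stabilizer GH vU) := by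
      rw [ht]; exact Subgroup.mem_top _
    have h4 : (n : GH)⁻¹ * g ∈ N := h3
    have := mul_mem n.2 h4
    rwa [mul_inv_cancel_left] at this

end hs

end Cfsg.Agent.H7.CoS3
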