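import Mathlib
import Cfsg.Agent.H26_FusM
import Cfsg.Agent.H7_CoS3

set_option autoImplicit false
set_option linter.unusedVariables false
set_option linter.unusedSectionVars false

/-!
The 2-fusion system of the McLaughlin group is simple.
-/

namespace Cfsg.Agent.H26.FusM

open Cfsg Cfsg.FusionSystem
open Cfsg.Agent.H7.Golay Cfsg.Agent.H7.Oct Cfsg.Agent.H14.M24Eng Cfsg.Agent.H14.M24Gen Cfsg.Agent.HL.Mat
open Cfsg.Agent.H7.L2 Cfsg.Agent.H7.LV Cfsg.Agent.H7.Co Cfsg.Agent.H7.Co2 Cfsg.Agent.H7.Co3 Cfsg.Agent.H7.CoT Cfsg.Agent.H7.CoM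
  Cfsg.Agent.H7.CoS3

theorem le22 : Spor.M22 ≤ M24 := fun g hg => (mem_M22.1 hg).1.1

theorem pt23 : pt 23 = none := by decide +kernel
theorem pt0 : pt 0 = some 0 := by decide +kernel

/-- a lattice vector fixed by the 2-group -/
theorem fixed_orbit {x : leechLattice} (h : ∀ σ : M24, σ.1 ∈ gp as22 → pe σ • x = x) {i j : GolayPt}
    (hij : j ∈ MulAction.orbit (gp as22) i) : (x : GolayPt → ℤ) j = (x : GolayPt → ℤ) i := by
  obtain ⟨⟨σ, hσ⟩, rfl⟩ := hij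
  have hσ24 : σ ∈ M24 := le22 (gp_le hs22 hσ)
  have h1 := h ⟨σ, hσ24⟩ hσ
  have h2 := pe_coe ⟨σ, hσ24⟩ x
  rw [h1] at h2
  have h3 := congrFun h2 (σ i)
  show (x : GolayPt → ℤ) (σ i) = (x : GolayPt → ℤ) i
  rw [h3]
  show (x : GolayPt → ℤ) (σ.symm (σ i)) = _
  rw [Equiv.symm_apply_apply]

theorem fixed_pt {x : leechLattice} (h : ∀ σ : M24, σ.1 ∈ gp as22 → pe σ • x = x) {P : ℕ × List ℕ} (hP : P ∈ pa22) {k : ℕ}
    (hk : k ∈ P.2) : (x : GolayPt → ℤ) (pt k) = (x : GolayPt → ℤ) (pt P.1) := by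
  apply fixed_orbit h
  rw [(orbit_spec hs22 pa22_ok hP (x := P.1) List.mem_cons_self).1]
  refine ⟨k, ?_, rfl⟩
  rw [Finset.mem_coe, List.mem_toFinset]
  exact List.mem_cons_of_mem _ hk

theorem small5 {a c d e : ℤ} (h1 : a ^ 2 + c ^ 2 + 2 * d ^ 2 + 8 * e ^ 2 = 16) (h2 : 2 * a + c + 2 * d + 8 * e = 8) :
    a = 4 ∧ c = 0 ∧ d = 0 ∧ e = 0 := by
  have he : e ≤ 1 ∧ -1 ≤ e := by constructor <;> nlinarith [sq_nonneg a, sq_nonneg c, sq_nonneg d]
  have hd : d ≤ 2 ∧ -2 ≤ d := by constructor <;> nlinarith [sq_nonneg a, sq_nonneg c, sq_nonneg e]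
  have ha : a ≤ 4 ∧ -4 ≤ a := by constructor <;> nlinarith [sq_nonneg c, sq_nonneg d, sq_nonneg e]
  have hc : c = 8 - 2 * a - 2 * d - 8 * e := by omega
  obtain ⟨he1, he2⟩ := he
  obtain ⟨hd1, hd2⟩ := hd
  obtain ⟨ha1, ha2⟩ := ha
  subst hc
  interval_cases e <;> interval_cases d <;> interval_cases a <;> first | (norm_num at h1; done) | norm_num

theorem uniqS {x : leechLattice} (h : ∀ σ : M24, σ.1 ∈ gp as22 → pe σ • x = x) (hn : Nm x = 32) (h1 : Dt x vE = 16)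
    (h2 : Dt x vU = 0) : x = vZ := by
  have hA : ∀ k ∈ ([3, 22, 21, 20, 19, 18, 17, 14, 11, 10, 7, 6, 5, 4, 2] : List ℕ), (x : GolayPt → ℤ) (pt k) = (x : GolayPt → ℤ) (pt 1) :=
    fun k hk => fixed_pt h (P := (1, [3, 22, 21, 20, 19, 18, 17, 14, 11, 10, 7, 6, 5, 4, 2])) (by decide) hk
  have hB : (x : GolayPt → ℤ) (pt 15) = (x : GolayPt → ℤ) (pt 8) := fixed_pt h (P := (8, [15])) (by decide) (by decide)
  have hC : ∀ k ∈ ([16, 13, 12] : List ℕ), (x : GolayPt → ℤ) (pt k) = (x : GolayPt → ℤ) (pt 9) :=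
    fun k hk => fixed_pt h (P := (9, [16, 13, 12])) (by decide) hk
  have hn' : Nm x = ∑ p, (x : GolayPt → ℤ) p ^ 2 := rfl
  have hE' : Dt x vE = ∑ p, (x : GolayPt → ℤ) p * (vE : GolayPt → ℤ) p := rfl
  rw [hn', sum_pt] at hn
  rw [hE', sum_pt] at h1
  rw [dt_vU_x, ← pt23, ← pt0] at h2
  have e1 := hA 3 (by decide)
  have e2 := hA 22 (by decide)
  have e3 := hA 21 (by decide)
  have e4 := hA 20 (by decide)
  have e5 := hA 19 (by decide)
  have e6 := hA 18 (by decide)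
  have e7 := hA 17 (by decide)
  have e8 := hA 14 (by decide)
  have e9 := hA 11 (by decide)
  have e10 := hA 10 (by decide)
  have e11 := hA 7 (by decide)
  have e12 := hA 6 (by decide)
  have e13 := hA 5 (by decide)
  have e14 := hA 4 (by decide)
  have e15 := hA 2 (by decide)
  have f1 := hC 16 (by decide)
  have f2 := hC 13 (by decide)
  have f3 := hC 12 (by decide)
  have hv : ∀ k < 24, (vE : GolayPt → ℤ) (pt k) = if k = 23 then 5 else 1 := by
    intro k hk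
    rw [vE_apply]
    have h0 : ∀ k < 24, (pt k = none ↔ k = 23) := by decide +kernel
    simp only [h0 k hk]
  simp only [Finset.sum_range_succ, Finset.sum_range_zero, hv _ (show (0:ℕ) < 24 by norm_num), hv _ (show (1:ℕ) < 24 by norm_num),
    hv _ (show (2:ℕ) < 24 by norm_num), hv _ (show (3:ℕ) < 24 by norm_num), hv _ (show (4:ℕ) < 24 by norm_num),
    hv _ (show (5:ℕ) < 24 by norm_num), hv _ (show (6:ℕ) < 24 by norm_num), hv _ (show (7:ℕ) < 24 by norm_num),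
    hv _ (show (8:ℕ) < 24 by norm_num), hv _ (show (9:ℕ) < 24 by norm_num), hv _ (show (10:ℕ) < 24 by norm_num),
    hv _ (show (11:ℕ) < 24 by norm_num), hv _ (show (12:ℕ) < 24 by norm_num), hv _ (show (13:ℕ) < 24 by norm_num),
    hv _ (show (14:ℕ) < 24 by norm_num), hv _ (show (15:ℕ) < 24 by norm_num), hv _ (show (16:ℕ) < 24 by norm_num),
    hv _ (show (17:ℕ) < 24 by norm_num), hv _ (show (18:ℕ) < 24 by norm_num), hv _ (show (19:ℕ) < 24 by norm_num),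
    hv _ (show (20:ℕ) < 24 by norm_num), hv _ (show (21:ℕ) < 24 by norm_num), hv _ (show (22:ℕ) < 24 by norm_num),
    hv _ (show (23:ℕ) < 24 by norm_num), e1, e2, e3, e4, e5, e6, e7, e8, e9, e10, e11, e12, e13, e14, e15, f1, f2, f3, hB] at hn h1
  obtain ⟨a, ha⟩ : ∃ a, a = (x : GolayPt → ℤ) (pt 23) := ⟨_, rfl⟩
  obtain ⟨b, hb⟩ : ∃ b, b = (x : GolayPt → ℤ) (pt 0) := ⟨_, rfl⟩
  obtain ⟨c, hc⟩ : ∃ c, c = (x : GolayPt → ℤ) (pt 8) := ⟨_, rfl⟩
  obtain ⟨d, hd⟩ : ∃ d, d = (x : GolayPt → ℤ) (pt 9) := ⟨_, rfl⟩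
  obtain ⟨e, he⟩ : ∃ e, e = (x : GolayPt → ℤ) (pt 1) := ⟨_, rfl⟩
  rw [← ha, ← hb] at h2
  rw [← ha, ← hb, ← hc, ← hd, ← he] at hn h1
  norm_num at h1
  have hab : b = -a := by omega
  subst hab
  obtain ⟨r1, r2, r3, r4⟩ := small5 (a := a) (c := c) (d := d) (e := e) (by nlinarith) (by omega)
  apply Subtype.ext
  funext i
  rw [← pt_ix i]
  have hi := ix_lt i
  generalize ix i = k at hi
  have hz : (vZ : GolayPt → ℤ) (pt k) = if k = 23 then 4 else if k = 0 then -4 else 0 := by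
    rw [vZ_apply]
    have h0 : ∀ k < 24, ((pt k = none ↔ k = 23) ∧ (pt k = some 0 ↔ k = 0)) := by decide +kernel
    simp only [(h0 k hi).1, (h0 k hi).2]
  rw [hz]
  interval_cases k
  · rw [← hb, r1]; rfl
  · rw [← he, r4]; rfl
  · rw [e15, ← he, r4]; rfl
  · rw [e1, ← he, r4]; rfl
  · rw [e14, ← he, r4]; rfl
  · rw [e13, ← he, r4]; rfl
  · rw [e12, ← he, r4]; rfl
  · rw [e11, ← he, r4]; rfl
  · rw [← hc, r2]; rfl
  · rw [← hd, r3]; rfl
  · rw [e10, ← he, r4]; rfl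
  · rw [e9, ← he, r4]; rfl
  · rw [f3, ← hd, r3]; rfl
  · rw [f2, ← hd, r3]; rfl
  · rw [e8, ← he, r4]; rfl
  · rw [hB, ← hc, r2]; rfl
  · rw [f1, ← hd, r3]; rfl
  · rw [e7, ← he, r4]; rfl
  · rw [e6, ← he, r4]; rfl
  · rw [e5, ← he, r4]; rfl
  · rw [e4, ← he, r4]; rfl
  · rw [e3, ← he, r4]; rfl
  · rw [e2, ← he, r4]; rfl
  · rw [← ha, r1]; rfl

/-- an element of `M22` fixes the three vectors -/
theorem pe_fix {σ : M24} (h1 : σ.1 none = none) (h2 : σ.1 (some 0) = some 0) : pe σ • vE = vE ∧ pe σ • vU = vU ∧ pe σ • vZ = vZ := by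
  have h3 : ∀ i, σ.1.symm i = none ↔ i = none := by
    intro i
    rw [Equiv.symm_apply_eq, h1]
  have h4 : ∀ i, σ.1.symm i = some 0 ↔ i = some 0 := by
    intro i
    rw [Equiv.symm_apply_eq, h2]
  refine ⟨?_, ?_, ?_⟩
  · apply Subtype.ext
    rw [pe_coe]
    funext i
    simp only [vE_apply, h3]
  · apply Subtype.ext
    rw [pe_coe]
    funext i
    simp only [vU_apply, h3, h4]
  · apply Subtype.ext
    rw [pe_coe]
    funext i
    simp only [vZ_apply, h3, h4]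

noncomputable def iM : Spor.M22 →* GM where
  toFun σ := ⟨pe ⟨σ.1, le22 σ.2⟩, by
    have h := mem_M22.1 σ.2
    rw [pt23, pt0] at h
    have h2 := pe_fix (σ := ⟨σ.1, le22 σ.2⟩) h.1.2 h.2
    exact ⟨h2.1, h2.2.1⟩⟩
  map_one' := Subtype.ext (map_one pe)
  map_mul' a b := Subtype.ext (map_mul pe ⟨a.1, le22 a.2⟩ ⟨b.1, le22 b.2⟩)

theorem iM_coe (σ : Spor.M22) : (iM σ : Co0) = pe ⟨σ.1, le22 σ.2⟩ := rfl

theorem iM_inj : Function.Injective iM := by
  intro σ τ h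
  have h1 : pe ⟨σ.1, le22 σ.2⟩ = pe ⟨τ.1, le22 τ.2⟩ := congrArg Subtype.val h
  have h2 := pe_injective h1
  exact Subtype.ext (congrArg (fun s : M24 => s.1) h2)

theorem norm_mcl (g : GM) (hg : ∀ s : Spor.M22, s.1 ∈ gp as22 → ∃ s' : Spor.M22, g⁻¹ * iM s * g = iM s') : g ∈ iM.range := by
  have h1 : (g : Co0) • vE = vE := g.2.1
  have h2 : (g : Co0) • vU = vU := g.2.2
  have h3 : (g : Co0) • vZ = vZ := by
    apply uniqS
    · intro σ hσ
      obtain ⟨s', hs'⟩ := hg ⟨σ.1, gp_le hs22 hσ⟩ hσ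
      have h4 : (g : Co0)⁻¹ * pe σ * g = pe ⟨s'.1, le22 s'.2⟩ := congrArg Subtype.val hs'
      have h5 := mem_M22.1 s'.2
      rw [pt23, pt0] at h5
      have h6 := (pe_fix (σ := ⟨s'.1, le22 s'.2⟩) h5.1.2 h5.2).2.2
      rw [← h4] at h6
      calc pe σ • (g : Co0) • vZ = (g : Co0) • ((g : Co0)⁻¹ * pe σ * g) • vZ := by
            rw [← mul_smul, ← mul_smul]; congr 1; group
        _ = (g : Co0) • vZ := by rw [h6]
    · rw [nm_smul]; exact vZ_norm
    · have e := dt_smul (g : Co0) vZ vE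
      rw [h1] at e
      exact e.trans dt_vE_vZ
    · have e := dt_smul (g : Co0) vZ vU
      rw [h2] at e
      exact e.trans Cfsg.Agent.H7.Co7.dt_vZ.2.2
  obtain ⟨σ, hσ, h4, h5⟩ := m22_of h1 h2 h3
  have h6 : σ.1 ∈ Spor.M22 := mem_M22.2 ⟨⟨σ.2, by rw [pt23]; exact h4⟩, by rw [pt0]; exact h5⟩
  exact ⟨⟨σ.1, h6⟩, Subtype.ext hσ.symm⟩

theorem gm {G : Type*} [Group G] [Finite G] (e : G ≃* GM) (S' : Sylow 2 G) : (groupFusionSystem (S' : Subgroup G)).IsSimple 2 := by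
  obtain ⟨S0, hS0, hne, hT, hb⟩ := mat_parts hs22 pc22 (by simp [as22]) (m := 3465) (by decide) (by rw [card_M22]; decide +kernel) cd22
    (lz := z22) (by decide +kernel) cen22 hP22 ss22_ok norm22
  have hc : ∀ s : Spor.M22, s ∈ (S0 : Subgroup Spor.M22) ↔ s.1 ∈ gp as22 := by
    intro s
    rw [hS0, Subgroup.mem_subgroupOf]
  have hinj : Function.Injective (e.symm.toMonoidHom.comp iM) := e.symm.injective.comp iM_inj
  refine up (e.symm.toMonoidHom.comp iM) hinj S0 ?_ hne hT ?_ hb S'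
  · have h1 := Subgroup.card_mul_index (e.symm.toMonoidHom.comp iM).range
    rw [Nat.card_congr e.toEquiv, card_GM, ← Nat.card_congr (MonoidHom.ofInjective hinj).toEquiv, card_M22] at h1
    have h2 : (e.symm.toMonoidHom.comp iM).range.index = 2025 :=
      Nat.eq_of_mul_eq_mul_left (by norm_num : 0 < 443520) (h1.trans (by norm_num))
    rw [h2]; decide
  · intro g _ hg
    obtain ⟨σ, hσ⟩ := norm_mcl (e g) (by
      intro s hs
      obtain ⟨s', _, h1⟩ := hg s ((hc s).2 hs)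
      refine ⟨s', ?_⟩
      have h2 := congrArg e h1
      have h3 : e (g⁻¹ * e.symm (iM s) * g) = e (e.symm (iM s')) := h2
      rwa [map_mul, map_mul, map_inv, e.apply_symm_apply, e.apply_symm_apply] at h3)
    refine ⟨σ, ?_⟩
    show e.symm (iM σ) = g
    rw [hσ, e.symm_apply_apply]

theorem leechU_eq : Spor.leechU = vU := by
  apply Subtype.ext
  funext i
  rw [vU_apply]
  show (if i = none ∨ i = some 0 then (4 : ℤ) else 0) = _
  by_cases h1 : i = none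
  · simp [h1]
  · simp [h1]

theorem leechV_eq : Spor.leechV = -vE := by
  apply Subtype.ext
  funext i
  show (if i = none then (-5 : ℤ) else -1) = -(vE : GolayPt → ℤ) i
  rw [vE_apply]
  split <;> rfl

theorem fixE (g : Co0) : g • Spor.leechV = Spor.leechV ↔ g • vE = vE := by
  rw [leechV_eq, smul_neg'', neg_inj]

noncomputable def eMcL : Spor.McL ≃* GM where
  toFun x := ⟨⟨x.1, x.2.1.1⟩, ⟨(fixE _).1 x.2.1.2, by
    rw [← leechU_eq]; exact x.2.2⟩⟩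
  invFun y := ⟨y.1.1, ⟨⟨y.1.2, (fixE y.1).2 y.2.1⟩, by
    have h := y.2.2
    rw [← leechU_eq] at h; exact h⟩⟩
  left_inv x := rfl
  right_inv y := rfl
  map_mul' x y := rfl

theorem mcl {G : Type*} [Group G] [Finite G] (hG : Cfsg.Spor.IsoMcL G) (S : Sylow 2 G) :
    (Cfsg.groupFusionSystem (S : Subgroup G)).IsSimple 2 := by
  obtain ⟨e⟩ := hG
  exact gm (e.trans eMcL) S

end Cfsg.Agent.H26.FusM
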