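import Mathlib
import Cfsg.Prelude.Def_Transfer
import Cfsg.Agent.H26_Kernel
import Cfsg.Agent.H26_Codeg
import Cfsg.Agent.H26_Ext0

/-!
# H26_Gagola: characters which are nonzero on exactly two classes
-/

set_option autoImplicit false

namespace Cfsg.Agent.H26.Gagola

open Cfsg Cfsg.Agent.H3.CharIrr Cfsg.Agent.H3.CharComplete Cfsg.Agent.H3.CharInd
  Cfsg.Agent.H3.Clifford Cfsg.Agent.H3.CharMult Cfsg.Agent.H26.Basic Cfsg.Agent.H26.Kernel
  Cfsg.Agent.H26.Codeg

open scoped ComplexConjugate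

variable {G : Type*} [Group G] [Finite G]

/-- sum over characters of a quotient -/
theorem sum_inflate (N : Subgroup G) [N.Normal] [Fintype (IrrCharacter G)] [Fintype (IrrCharacter (G ⧸ N))]
    (F : (G → ℂ) → ℂ) [DecidablePred fun ψ : IrrCharacter G => ∀ n ∈ N, (ψ : G → ℂ) n = (ψ : G → ℂ) 1] :
    ∑ ψ : IrrCharacter (G ⧸ N), F ((ψ : G ⧸ N → ℂ) ∘ QuotientGroup.mk) =
      ∑ ψ ∈ Finset.univ.filter (fun ψ : IrrCharacter G => ∀ n ∈ N, (ψ : G → ℂ) n = (ψ : G → ℂ) 1), F (ψ : G → ℂ) := by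
  classical
  apply Finset.sum_bij (fun (ψ : IrrCharacter (G ⧸ N)) _ =>
    (⟨(ψ : G ⧸ N → ℂ) ∘ QuotientGroup.mk, Cfsg.Agent.H10.BlockNormal.inflate N ψ.2⟩ : IrrCharacter G))
  · intro ψ _
    simp only [Finset.mem_filter, Finset.mem_univ, true_and]
    intro n hn
    show (ψ : G ⧸ N → ℂ) (QuotientGroup.mk n) = (ψ : G ⧸ N → ℂ) (QuotientGroup.mk 1)
    rw [(QuotientGroup.eq_one_iff n).2 hn]; rfl
  · intro ψ _ φ _ h
    have h1 : (ψ : G ⧸ N → ℂ) ∘ QuotientGroup.mk = (φ : G ⧸ N → ℂ) ∘ QuotientGroup.mk := congrArg Subtype.val h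
    apply Subtype.ext
    funext y
    obtain ⟨g, rfl⟩ := QuotientGroup.mk_surjective y
    exact congrFun h1 g
  · intro ψ hψ
    simp only [Finset.mem_filter, Finset.mem_univ, true_and] at hψ
    obtain ⟨ψ', h1, h2⟩ := Cfsg.Agent.H10.BlockNormal.deflate N ψ.2 hψ
    refine ⟨⟨ψ', h1⟩, Finset.mem_univ _, ?_⟩
    apply Subtype.ext
    funext g
    exact (h2 g).symm
  · intro ψ _; rfl

/-- structure data of a Gagola character -/
structure Data (χ : IrrCharacter G) : Type _ where
  N : Subgroup G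
  normal : N.Normal
  mem_iff : ∀ g, g ∈ N ↔ (χ : G → ℂ) g ≠ 0
  mem_iff_ker : ∀ g, g ∈ N ↔ ∀ ψ : IrrCharacter G, ψ ≠ χ → (ψ : G → ℂ) g = (ψ : G → ℂ) 1
  x : G
  hx : x ∈ N
  hx1 : x ≠ 1
  cnj : ∀ y ∈ N, y ≠ 1 → IsConj x y
  e : ℕ
  k : ℕ
  epos : 0 < e
  kpos : 0 < k
  deg : charDegree (χ : G → ℂ) = k * e
  val : ∀ y ∈ N, y ≠ 1 → (χ : G → ℂ) y = -(e : ℂ)
  index : (Subgroup.centralizer ({x} : Set G)).index = k
  cardN : Nat.card N = k + 1
  cardG : Nat.card G = e ^ 2 * k * (k + 1)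

theorem exists_data (hG : 2 < Nat.card G) (χ : IrrCharacter G)
    (hχ : Nat.card {C : ConjClasses G // ∃ g ∈ C.carrier, (χ : G → ℂ) g ≠ 0} = 2) : Nonempty (Data χ) := by
  classical
  haveI : Fintype G := Fintype.ofFinite G
  haveI : Fintype (IrrCharacter G) := Fintype.ofFinite _
  have hcl : IsClassFunction G (χ : G → ℂ) := IsIrr.isClass χ.2
  have hcard : (Nat.card G : ℂ) ≠ 0 := by exact_mod_cast Nat.card_pos.ne'
  -- the second class
  obtain ⟨x, hx1, hxv, hxc⟩ : ∃ x : G, x ≠ 1 ∧ (χ : G → ℂ) x ≠ 0 ∧ ∀ g, (χ : G → ℂ) g ≠ 0 → g ≠ 1 → IsConj x g := by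
    let c1 : {C : ConjClasses G // ∃ g ∈ C.carrier, (χ : G → ℂ) g ≠ 0} :=
      ⟨ConjClasses.mk 1, 1, ConjClasses.mem_carrier_mk, one_ne χ⟩
    obtain ⟨c2, hc2, huniq⟩ := (Nat.card_eq_two_iff' c1).1 hχ
    obtain ⟨C, x, hxC, hxv⟩ := c2
    have hmk : ∀ y ∈ C.carrier, ConjClasses.mk y = C := fun y hy => ConjClasses.mem_carrier_iff_mk_eq.1 hy
    refine ⟨x, ?_, hxv, ?_⟩
    · rintro rfl
      apply hc2
      apply Subtype.ext
      show C = ConjClasses.mk 1
      rw [hmk _ hxC]
    · intro g hg hg1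
      have h1 := huniq ⟨ConjClasses.mk g, g, ConjClasses.mem_carrier_mk, hg⟩ (by
        intro h
        have h2 : ConjClasses.mk g = ConjClasses.mk 1 := congrArg Subtype.val h
        rw [ConjClasses.mk_eq_mk_iff_isConj] at h2
        exact hg1 (isConj_one_left.1 h2))
      have h2 : ConjClasses.mk g = C := congrArg Subtype.val h1
      rw [← ConjClasses.mk_eq_mk_iff_isConj, hmk x hxC, h2]
  set k := (Subgroup.centralizer ({x} : Set G)).index with hk
  have hk0 : k ≠ 0 := Subgroup.index_ne_zero_of_finite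
  -- summation formula
  have hsum : ∀ F : G → ℂ, IsClassFunction G F → ∑ g, (χ : G → ℂ) g * F g =
      (χ : G → ℂ) 1 * F 1 + k * ((χ : G → ℂ) x * F x) := by
    intro F hF
    have h1 : ∑ g, (χ : G → ℂ) g * F g = (χ : G → ℂ) 1 * F 1 + ∑ g ∈ Finset.univ.filter (IsConj x), (χ : G → ℂ) g * F g := by
      rw [← Finset.add_sum_erase _ _ (Finset.mem_univ (1 : G))]
      congr 1
      symm
      apply Finset.sum_subset
      · intro g hg
        simp only [Finset.mem_filter, Finset.mem_univ, true_and] at hg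
        rw [Finset.mem_erase]
        refine ⟨?_, Finset.mem_univ _⟩
        rintro rfl
        exact hx1 (isConj_one_left.1 hg)
      · intro g hg hg'
        simp only [Finset.mem_filter, Finset.mem_univ, true_and] at hg'
        have : (χ : G → ℂ) g = 0 := by
          by_contra h
          exact hg' (hxc g h (Finset.ne_of_mem_erase hg))
        rw [this, zero_mul]
    rw [h1]
    congr 1
    rw [Finset.sum_congr rfl (g := fun _ => (χ : G → ℂ) x * F x)]
    · rw [Finset.sum_const, nsmul_eq_mul, card_class_eq_index]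
    · intro g hg
      simp only [Finset.mem_filter, Finset.mem_univ, true_and] at hg
      rw [← IsClass.eq_of_isConj hcl hg, ← IsClass.eq_of_isConj hF hg]
  have hk0' : (k : ℂ) ≠ 0 := by exact_mod_cast hk0
  -- χ is not the trivial character
  have hne : (χ : G → ℂ) ≠ fun _ => 1 := by
    intro h
    have h1 := hsum (fun _ => 1) (fun _ _ => rfl)
    simp only [h, mul_one] at h1
    rw [Finset.sum_const, nsmul_eq_mul, Finset.card_univ, ← Nat.card_eq_fintype_card, mul_one] at h1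
    have h2 : Nat.card G = 1 + k := by exact_mod_cast h1
    have h3 : k ∣ Nat.card G := Subgroup.index_dvd_card _
    rw [h2] at h3
    have h4 : k ∣ 1 := (Nat.dvd_add_left (dvd_refl k)).1 h3
    rw [Nat.dvd_one] at h4
    omega
  have hf0 : (charDegree (χ : G → ℂ)) ≠ 0 := (cd_pos χ).ne'
  set f := charDegree (χ : G → ℂ) with hf
  have hf1 : (χ : G → ℂ) 1 = f := (cd_eq χ).symm
  have hf0' : (f : ℂ) ≠ 0 := by exact_mod_cast hf0
  have h1 : (f : ℂ) + k * (χ : G → ℂ) x = 0 := by
    have h2 := ci_irr_ne χ.2 isIrr_one hne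
    rw [classInner] at h2
    have h3 := (mul_eq_zero.1 h2).resolve_left (inv_ne_zero hcard)
    have h4 := hsum (fun _ => 1) (fun _ _ => rfl)
    simp only [map_one, mul_one] at h3
    simp only [mul_one] at h4
    rw [h3, hf1] at h4
    exact h4.symm
  have hxval : (χ : G → ℂ) x = -(f : ℂ) / k := by
    field_simp
    linear_combination h1
  -- k divides f
  have hkf : k ∣ f := by
    apply dvd_of_integral_div hk0
    have h2 := (integral_val χ x).neg
    rw [hxval] at h2
    convert h2 using 1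
    ring
  obtain ⟨e, he⟩ := hkf
  have he0 : e ≠ 0 := by
    rintro rfl
    rw [mul_zero] at he
    exact hf0 he
  have hxe : (χ : G → ℂ) x = -(e : ℂ) := by
    rw [hxval, he]; push_cast; field_simp
  -- order
  have hG2 : Nat.card G = e ^ 2 * k * (k + 1) := by
    have h2 := ci_irr_self χ.2
    rw [classInner, inv_mul_eq_one₀ hcard] at h2
    have h4 := hsum (fun g => conj ((χ : G → ℂ) g)) (fun g h => congrArg conj (hcl g h))
    rw [← h2, hf1, hxe, he] at h4
    simp only [map_neg, Complex.conj_natCast] at h4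
    have h5 : ((Nat.card G : ℕ) : ℂ) = ((e ^ 2 * k * (k + 1) : ℕ) : ℂ) := by
      rw [h4]; push_cast; ring
    exact_mod_cast h5
  -- other characters contain x in the kernel
  have hker : ∀ ψ : IrrCharacter G, ψ ≠ χ → (ψ : G → ℂ) x = (ψ : G → ℂ) 1 := by
    intro ψ hψ
    have h2 := ci_irr_ne χ.2 ψ.2 (fun h => hψ (Subtype.ext h.symm))
    rw [classInner] at h2
    have h3 := (mul_eq_zero.1 h2).resolve_left (inv_ne_zero hcard)
    have h4 := hsum (fun g => conj ((ψ : G → ℂ) g)) (fun g h => congrArg conj (IsIrr.isClass ψ.2 g h))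
    rw [h3, hf1, hxval] at h4
    have h5 : (f : ℂ) * (conj ((ψ : G → ℂ) 1) - conj ((ψ : G → ℂ) x)) = 0 := by
      rw [h4]; field_simp; ring
    have h6 := (mul_eq_zero.1 h5).resolve_left hf0'
    rw [← map_sub] at h6
    have h7 := (map_eq_zero (starRingEnd ℂ)).1 h6
    exact (sub_eq_zero.1 h7).symm
  have hkey : ∀ g, (χ : G → ℂ) g ≠ 0 ↔ ∀ ψ : IrrCharacter G, ψ ≠ χ → (ψ : G → ℂ) g = (ψ : G → ℂ) 1 := by
    intro g
    constructor
    · intro hg ψ hψ
      by_cases hg1 : g = 1
      · rw [hg1]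
      · rw [← IsClass.eq_of_isConj (IsIrr.isClass ψ.2) (hxc g hg hg1)]
        exact hker ψ hψ
    · intro h hg0
      by_cases hg1 : g = 1
      · rw [hg1] at hg0
        exact one_ne χ hg0
      · have h2 := sum_one_mul (G := G) g
        rw [if_neg hg1, ← Finset.add_sum_erase _ _ (Finset.mem_univ χ), hg0, mul_zero, zero_add] at h2
        have h3 := sum_sq (G := G)
        rw [← Finset.add_sum_erase _ _ (Finset.mem_univ χ)] at h3
        have h4 : ∑ ψ ∈ Finset.univ.erase χ, (ψ : G → ℂ) 1 * (ψ : G → ℂ) g =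
            ∑ ψ ∈ Finset.univ.erase χ, (ψ : G → ℂ) 1 ^ 2 := by
          refine Finset.sum_congr rfl fun ψ hψ => ?_
          rw [h ψ (Finset.ne_of_mem_erase hψ)]; ring
        rw [← h4, h2, add_zero, hf1] at h3
        have h5 : f ^ 2 = Nat.card G := by exact_mod_cast h3
        rw [hG2, he] at h5
        have h6 : (k * e) ^ 2 + e ^ 2 * k = e ^ 2 * k * (k + 1) := by ring
        have h7 : 0 < e ^ 2 * k := Nat.mul_pos (pow_pos (Nat.pos_of_ne_zero he0) 2) (Nat.pos_of_ne_zero hk0)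
        omega
  let N : Subgroup G :=
    { carrier := {g | (χ : G → ℂ) g ≠ 0}
      one_mem' := one_ne χ
      mul_mem' := by
        intro a b ha hb
        simp only [Set.mem_setOf_eq] at ha hb ⊢
        rw [hkey] at ha hb ⊢
        intro ψ hψ
        rw [ker_mul (IsIrr.isCharacter ψ.2) (ha ψ hψ), hb ψ hψ]
      inv_mem' := by
        intro a ha
        simp only [Set.mem_setOf_eq] at ha ⊢
        rw [hkey] at ha ⊢
        intro ψ hψ
        rw [inv_eq, ha ψ hψ, ← cd_eq]; simp }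
  have hmemN : ∀ g, g ∈ N ↔ (χ : G → ℂ) g ≠ 0 := fun g => Iff.rfl
  have hNn : N.Normal := ⟨fun n hn g => by
    rw [hmemN] at hn ⊢
    rwa [hcl n g]⟩
  have hconj : ∀ y ∈ N, y ≠ 1 → IsConj x y := fun y hy hy1 => hxc y hy hy1
  have hcN : Nat.card N = k + 1 := by
    have h2 : (Finset.univ.filter (fun g => g ∈ N)).card = Nat.card N := by
      rw [Nat.card_eq_fintype_card, Fintype.card_subtype]
    rw [← h2]
    have h3 : Finset.univ.filter (fun g => g ∈ N) = insert 1 (Finset.univ.filter (IsConj x)) := by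
      ext g
      simp only [Finset.mem_filter, Finset.mem_univ, true_and, Finset.mem_insert]
      constructor
      · intro hg
        by_cases hg1 : g = 1
        · exact Or.inl hg1
        · exact Or.inr (hconj g hg hg1)
      · rintro (rfl | hg)
        · exact one_mem _
        · rw [hmemN, ← IsClass.eq_of_isConj hcl hg]; exact hxv
    rw [h3, Finset.card_insert_of_notMem, card_class_eq_index]
    simp only [Finset.mem_filter, Finset.mem_univ, true_and]
    intro h
    exact hx1 (isConj_one_left.1 h)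
  exact ⟨{ N := N
           normal := hNn
           mem_iff := hmemN
           mem_iff_ker := fun g => (hmemN g).trans (hkey g)
           x := x
           hx := hxv
           hx1 := hx1
           cnj := hconj
           e := e
           k := k
           epos := Nat.pos_of_ne_zero he0
           kpos := Nat.pos_of_ne_zero hk0
           deg := he
           val := fun y hy hy1 => by rw [← IsClass.eq_of_isConj hcl (hconj y hy hy1), hxe]
           index := rfl
           cardN := hcN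
           cardG := hG2 }⟩

namespace Data

variable {χ : IrrCharacter G} (d : Data χ)

include d

theorem le_of_normal (K : Subgroup G) (hK : K.Normal) (hK1 : K ≠ ⊥) : d.N ≤ K := by
  classical
  haveI : Fintype G := Fintype.ofFinite G
  have hxK : d.x ∈ K := by
    by_contra hx
    have h1 : (QuotientGroup.mk d.x : G ⧸ K) ≠ 1 := by
      rwa [Ne, QuotientGroup.eq_one_iff]
    obtain ⟨ψ, hψ⟩ := exists_irr_ne h1
    have hinf := Cfsg.Agent.H10.BlockNormal.inflate K ψ.2
    have h2 : (⟨_, hinf⟩ : IrrCharacter G) = χ := by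
      by_contra hne
      exact hψ ((d.mem_iff_ker d.x).1 d.hx _ hne)
    obtain ⟨y, hy⟩ := (Subgroup.ne_bot_iff_exists_ne_one).1 hK1
    have h3 : (χ : G → ℂ) y = (χ : G → ℂ) 1 := by
      rw [← h2]
      show (ψ : G ⧸ K → ℂ) (QuotientGroup.mk (y : G)) = (ψ : G ⧸ K → ℂ) (QuotientGroup.mk 1)
      rw [(QuotientGroup.eq_one_iff (y : G)).2 y.2]; rfl
    have h4 : (y : G) ∈ d.N := by
      rw [d.mem_iff, h3]; exact one_ne χ
    have h5 := d.cnj _ h4 (fun h => hy (Subtype.ext h))
    obtain ⟨c, hc⟩ := isConj_iff.1 h5.symm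
    apply hx
    rw [← hc]
    exact hK.conj_mem _ y.2 c
  intro z hz
  by_cases hz1 : z = 1
  · rw [hz1]; exact one_mem _
  · obtain ⟨c, hc⟩ := isConj_iff.1 (d.cnj z hz hz1)
    rw [← hc]
    exact hK.conj_mem _ hxK c

theorem exists_prime : ∃ p : ℕ, p.Prime ∧ IsElementaryAbelian p d.N ∧ IsPGroup p d.N := by
  classical
  haveI := d.normal
  have h1 : Nat.card d.N ≠ 1 := by rw [d.cardN]; have := d.kpos; omega
  obtain ⟨p, hp, hpd⟩ := Nat.exists_prime_and_dvd h1
  haveI : Fact p.Prime := ⟨hp⟩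
  obtain ⟨z, hz⟩ := exists_prime_orderOf_dvd_card' (G := d.N) p hpd
  have hz1 : (z : G) ≠ 1 := by
    intro h
    have h1 : z = 1 := Subtype.ext h
    rw [h1, orderOf_one] at hz
    exact hp.one_lt.ne hz
  have hxo : orderOf d.x = p := by
    obtain ⟨c, hc⟩ := isConj_iff.1 (d.cnj _ z.2 hz1)
    rw [← hz, ← Subgroup.orderOf_coe, ← hc]
    exact ((MulAut.conj c).orderOf_eq d.x).symm
  have hpow : ∀ y ∈ d.N, y ^ p = 1 := by
    intro y hy
    by_cases hy1 : y = 1
    · rw [hy1, one_pow]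
    · obtain ⟨c, hc⟩ := isConj_iff.1 (d.cnj y hy hy1)
      rw [← hc, conj_pow, ← hxo, pow_orderOf_eq_one]; group
  have hNp : IsPGroup p d.N := by
    intro g
    refine ⟨1, ?_⟩
    rw [pow_one]
    exact Subtype.ext (by rw [Subgroup.coe_pow]; exact hpow g g.2)
  refine ⟨p, hp, ⟨?_, hpow⟩, hNp⟩
  haveI : Nontrivial d.N := ⟨⟨z, 1, fun h => hz1 (congrArg Subtype.val h)⟩⟩
  have hc : Nontrivial (Subgroup.center d.N) := hNp.center_nontrivial
  have h2 : ((Subgroup.center d.N).map d.N.subtype).Normal := inferInstance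
  have h3 : (Subgroup.center d.N).map d.N.subtype ≠ ⊥ := by
    intro h
    rw [Subgroup.map_eq_bot_iff_of_injective _ d.N.subtype_injective] at h
    exact (Subgroup.nontrivial_iff_ne_bot _).1 hc h
  have h4 := d.le_of_normal _ h2 h3
  refine ⟨⟨fun a b => ?_⟩⟩
  obtain ⟨a', ha', ha2⟩ := h4 a.2
  have : a' = a := Subtype.ext ha2
  rw [this] at ha'
  exact ((Subgroup.mem_center_iff.1 ha') b).symm

theorem inner_res [Fintype d.N] (lam : d.N → ℂ) (hlam : IsIrrCharacter d.N lam) (hne : lam ≠ fun _ => 1) :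
    classInner (fun n : d.N => (χ : G → ℂ) n) lam = d.e * lam 1 := by
  classical
  have hs : ∑ n : d.N, conj (lam n) = 0 := by
    have h1 := ci_irr_ne hlam isIrr_one hne
    rw [classInner] at h1
    have h2 := (mul_eq_zero.1 h1).resolve_left (inv_ne_zero (by exact_mod_cast Nat.card_pos.ne'))
    simp only [map_one, mul_one] at h2
    rw [← map_sum, h2, map_zero]
  have h1 : ∀ n : d.N, (χ : G → ℂ) n * conj (lam n) = -(d.e : ℂ) * conj (lam n) +
      (if n = 1 then ((d.k + 1 : ℕ) : ℂ) * d.e * conj (lam 1) else 0) := by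
    intro n
    by_cases hn : n = 1
    · subst hn
      rw [if_pos rfl, OneMemClass.coe_one, ← cd_eq, d.deg]
      push_cast; ring
    · rw [if_neg hn, add_zero, d.val n n.2 (fun h => hn (Subtype.ext h))]
  rw [classInner]
  simp_rw [h1]
  rw [Finset.sum_add_distrib, ← Finset.mul_sum, hs, mul_zero, zero_add, Finset.sum_ite_eq' Finset.univ (1 : d.N),
    if_pos (Finset.mem_univ _), d.cardN]
  have h2 : ((d.k + 1 : ℕ) : ℂ) ≠ 0 := Nat.cast_ne_zero.2 (Nat.succ_ne_zero _)
  have h3 : conj (lam 1) = lam 1 := IsChar.conj_one (IsIrr.isCharacter hlam)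
  rw [h3]
  field_simp

theorem index_of_mem {y : G} (hy : y ∈ d.N) (hy1 : y ≠ 1) :
    (Subgroup.centralizer ({y} : Set G)).index = d.k := by
  classical
  haveI : Fintype G := Fintype.ofFinite G
  have h1 := card_centralizer_eq_of_isConj (d.cnj y hy hy1)
  have h2 := Subgroup.card_mul_index (Subgroup.centralizer ({y} : Set G))
  have h3 := Subgroup.card_mul_index (Subgroup.centralizer ({d.x} : Set G))
  rw [d.index, h1] at h3
  rw [← h3] at h2
  exact Nat.eq_of_mul_eq_mul_left Nat.card_pos h2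

theorem abelian : ∀ a b : d.N, a * b = b * a := by
  obtain ⟨p, _, h, _⟩ := d.exists_prime
  exact h.1.1.1

theorem one_of_irr {lam : d.N → ℂ} (hlam : IsIrrCharacter d.N lam) : lam 1 = 1 :=
  IsIrr.one_of_comm d.abelian hlam

theorem inertia_index (lam : d.N → ℂ) (hlam : IsIrrCharacter d.N lam) (hne : lam ≠ fun _ => 1) :
    (inertia d.normal lam).index = d.k := by
  classical
  haveI : Fintype G := Fintype.ofFinite G
  haveI : Fintype d.N := Fintype.ofFinite _
  have h1 := d.inner_res lam hlam hne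
  rw [d.one_of_irr hlam, mul_one] at h1
  have he : (d.e : ℂ) ≠ 0 := by exact_mod_cast d.epos.ne'
  have h2 := clifford_degree (hN := d.normal) χ.2 hlam (by rw [h1]; exact he)
  rw [h1, d.one_of_irr hlam, mul_one, ← cd_eq, d.deg] at h2
  have h3 : ((d.e * d.k : ℕ) : ℂ) = ((d.e * (inertia d.normal lam).index : ℕ) : ℂ) := by
    push_cast at h2 ⊢
    rw [← h2]; ring
  have h4 : d.e * d.k = d.e * (inertia d.normal lam).index := by exact_mod_cast h3
  exact (Nat.eq_of_mul_eq_mul_left d.epos h4).symm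

theorem exists_lam : ∃ lam : d.N → ℂ, IsIrrCharacter d.N lam ∧ lam ≠ fun _ => 1 := by
  have h1 : (⟨d.x, d.hx⟩ : d.N) ≠ 1 := fun h => d.hx1 (congrArg Subtype.val h)
  obtain ⟨ψ, hψ⟩ := exists_irr_ne h1
  refine ⟨ψ, ψ.2, ?_⟩
  intro h
  rw [h] at hψ
  exact hψ rfl

/-- `e` is a power of `p` -/
theorem prime_of_dvd_e {p : ℕ} (hNp : IsPGroup p d.N) (hp : p.Prime) {q : ℕ} (hq : q.Prime) (hqe : q ∣ d.e) :
    q = p := by
  classical
  haveI : Fintype G := Fintype.ofFinite G
  haveI : Fintype d.N := Fintype.ofFinite _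
  haveI := d.normal
  haveI : Fact p.Prime := ⟨hp⟩
  haveI : Fact q.Prime := ⟨hq⟩
  by_contra hne
  obtain ⟨lam, hlam, hlam1⟩ := d.exists_lam
  obtain ⟨l, hl⟩ := IsChar.hom_units_of_one (IsIrr.isCharacter hlam) (d.one_of_irr hlam)
  let T := inertia d.normal lam
  have hNT : d.N ≤ T := le_inertia d.normal (IsIrr.isClass hlam)
  have hTidx : T.index = d.k := d.inertia_index lam hlam hlam1
  have hTcard : Nat.card T = d.e ^ 2 * (d.k + 1) := by
    have h1 := Subgroup.card_mul_index T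
    rw [hTidx, d.cardG] at h1
    have h2 : Nat.card T * d.k = (d.e ^ 2 * (d.k + 1)) * d.k := by rw [h1]; ring
    exact Nat.eq_of_mul_eq_mul_right d.kpos h2
  obtain ⟨Q0⟩ : Nonempty (Sylow q T) := inferInstance
  let Q : Subgroup G := (Q0 : Subgroup T).map T.subtype
  have hQT : Q ≤ T := Subgroup.map_subtype_le _
  obtain ⟨a, ha⟩ := IsPGroup.iff_card.1 hNp
  have hQcard : Nat.card Q = q ^ (2 * d.e.factorization q) := by
    have h1 : Nat.card Q = Nat.card Q0 :=
      (Nat.card_congr (Subgroup.equivMapOfInjective _ _ T.subtype_injective).symm.toEquiv)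
    rw [h1, Q0.card_eq_multiplicity, hTcard, ← d.cardN, ha,
      Nat.factorization_mul (pow_ne_zero _ d.epos.ne') (pow_ne_zero _ hp.ne_zero), Finsupp.add_apply,
      Nat.factorization_pow, Nat.Prime.factorization_pow hp, Finsupp.single_eq_of_ne hne]
    simp
  have hcop : Nat.Coprime (Nat.card d.N) (Nat.card Q) := by
    rw [ha, hQcard]
    exact Nat.Coprime.pow _ _ ((Nat.coprime_primes hp hq).2 (Ne.symm hne))
  let H : Subgroup G := d.N ⊔ Q
  have hHT : H ≤ T := sup_le hNT hQT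
  have hNH : d.N ≤ H := le_sup_left
  have hinf : Q ⊓ d.N = ⊥ := by
    rw [inf_comm]
    exact Cfsg.Agent.H1.Basic.disjoint_of_coprime_card hcop
  have hHcard : Nat.card H = Nat.card d.N * Nat.card Q := by
    have h1 := Cfsg.Agent.H1.Basic.card_sup_mul_card_inf (H := Q) (K := d.N)
      (by rw [Subgroup.normalizer_eq_top]; exact le_top)
    rw [hinf, Subgroup.card_bot, mul_one, sup_comm] at h1
    rw [mul_comm]; exact h1
  haveI : Fintype H := Fintype.ofFinite H
  -- extend to H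
  let N' : Subgroup H := d.N.subgroupOf H
  haveI : N'.Normal := inferInstance
  have hN'card : Nat.card N' = Nat.card d.N := Cfsg.Agent.H1.Basic.card_subgroupOf hNH
  have hN'idx : N'.index = Nat.card Q := by
    have h1 := Subgroup.card_mul_index N'
    rw [hN'card, hHcard] at h1
    exact Nat.eq_of_mul_eq_mul_left Nat.card_pos h1
  let l' : N' →* ℂˣ := l.comp (Subgroup.subgroupOfEquivOfLe hNH).toMonoidHom
  have hl' : ∀ n : N', l' n = l ⟨((n : H) : G), Subgroup.mem_subgroupOf.1 n.2⟩ := fun n => rfl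
  obtain ⟨μ, hμ, _⟩ := Cfsg.Agent.H26.Ext0.linear_ext N' l' (by
    intro g n
    apply Units.ext
    rw [hl', hl', ← hl, ← hl]
    have hgT : (g : G) ∈ T := hHT g.2
    have h2 : cj d.normal (g : G) lam = lam := hgT
    have h3 := congrFun h2 ⟨((n : H) : G), Subgroup.mem_subgroupOf.1 n.2⟩
    rw [cj_apply] at h3
    exact h3) (r := Nat.card d.N) Nat.card_pos.ne' (by
      intro n
      rw [hl', ← map_pow, pow_card_eq_one', map_one]) (by
      rw [hN'idx]; exact hcop.symm)
  have hμN : ∀ (n : G) (hn : n ∈ d.N), ((μ ⟨n, hNH hn⟩ : ℂˣ) : ℂ) = lam ⟨n, hn⟩ := by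
    intro n hn
    have h1 := hμ ⟨⟨n, hNH hn⟩, Subgroup.mem_subgroupOf.2 hn⟩
    rw [h1, hl', ← hl]
  have hθ : IsIrrCharacter H (fun h => (μ h : ℂ)) := isIrr_of_hom_units μ
  obtain ⟨m, hm⟩ := ci_char_nat (IsChar.res (IsIrr.isCharacter χ.2) H) (IsIrr.isCharacter hθ)
  -- compute the inner product
  have hsum : ∑ h : H, (χ : G → ℂ) h * conj (μ h : ℂ) = ∑ n : d.N, (χ : G → ℂ) n * conj (lam n) := by
    have e1 : ∑ h : H, (χ : G → ℂ) h * conj (μ h : ℂ) = ∑ g : G, extendByZero H (fun h => conj (μ h : ℂ)) g * (χ : G → ℂ) g := by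
      rw [sum_ext_mul]; exact Finset.sum_congr rfl fun _ _ => mul_comm _ _
    have e2 : ∑ n : d.N, (χ : G → ℂ) n * conj (lam n) = ∑ g : G, extendByZero d.N (fun n => conj (lam n)) g * (χ : G → ℂ) g := by
      rw [sum_ext_mul]; exact Finset.sum_congr rfl fun _ _ => mul_comm _ _
    rw [e1, e2]
    refine Finset.sum_congr rfl fun g _ => ?_
    by_cases hg : g ∈ d.N
    · rw [ext_mem _ _ hg, ext_mem _ _ (hNH hg), hμN]
    · have : (χ : G → ℂ) g = 0 := by
        by_contra h
        exact hg ((d.mem_iff g).2 h)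
      rw [this, mul_zero, mul_zero]
  have h1 := d.inner_res lam hlam hlam1
  rw [d.one_of_irr hlam, mul_one] at h1
  have h2 : (d.e : ℂ) = Nat.card Q * m := by
    rw [← h1, ← hm, classInner, classInner, hsum, hHcard]
    have hA : (Nat.card d.N : ℂ) ≠ 0 := by exact_mod_cast Nat.card_pos.ne'
    have hB : (Nat.card Q : ℂ) ≠ 0 := by exact_mod_cast Nat.card_pos.ne'
    push_cast
    field_simp
  have h3 : d.e = Nat.card Q * m := by exact_mod_cast h2
  have hm0 : m ≠ 0 := by
    rintro rfl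
    rw [mul_zero] at h3
    exact d.epos.ne' h3
  have h4 : d.e.factorization q = 2 * d.e.factorization q + m.factorization q := by
    conv_lhs => rw [h3, hQcard, Nat.factorization_mul (pow_ne_zero _ hq.ne_zero) hm0, Finsupp.add_apply,
      Nat.Prime.factorization_pow hq, Finsupp.single_eq_same]
  have h5 : 0 < d.e.factorization q := hq.factorization_pos_of_dvd d.epos.ne' hqe
  omega

/-- a subgroup of index `k` is a Sylow `p`-subgroup -/
theorem sylow_of_index {p : ℕ} [hp : Fact p.Prime] (hNp : IsPGroup p d.N) (C : Subgroup G) (hC : C.index = d.k) :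
    ∃ P : Sylow p G, (P : Subgroup G) = C := by
  have hCcard : Nat.card C = d.e ^ 2 * (d.k + 1) := by
    have h1 := Subgroup.card_mul_index C
    rw [hC, d.cardG] at h1
    have h2 : Nat.card C * d.k = (d.e ^ 2 * (d.k + 1)) * d.k := by rw [h1]; ring
    exact Nat.eq_of_mul_eq_mul_right d.kpos h2
  obtain ⟨a, ha⟩ := IsPGroup.iff_card.1 hNp
  have hpow : ∃ n, Nat.card C = p ^ n := by
    refine ⟨_, Nat.eq_prime_pow_of_unique_prime_dvd Nat.card_pos.ne' ?_⟩
    intro q hq hqC
    rw [hCcard, ← d.cardN, ha] at hqC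
    rcases (hq.dvd_mul).1 hqC with h | h
    · exact d.prime_of_dvd_e hNp hp.1 hq (hq.dvd_of_dvd_pow h)
    · exact (Nat.prime_dvd_prime_iff_eq hq hp.1).1 (hq.dvd_of_dvd_pow h)
  obtain ⟨n, hn⟩ := hpow
  have h1 : IsPGroup p C := IsPGroup.of_card hn
  have h2 : ¬ p ∣ C.index := by
    rw [hC]
    intro h
    have h3 : p ∣ d.k + 1 := by
      rw [← d.cardN, ha]
      apply dvd_pow_self
      rintro rfl
      rw [pow_zero, d.cardN] at ha
      have := d.kpos
      omega
    have h4 := (Nat.dvd_add_right h).1 h3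
    exact hp.1.one_lt.ne' (Nat.dvd_one.1 h4)
  exact ⟨h1.toSylow h2, rfl⟩

/-- centralizer orders outside `N` -/
theorem card_centralizer_eq (g : G) (hg : g ∉ d.N) : haveI := d.normal
    Nat.card (Subgroup.centralizer ({g} : Set G)) =
      Nat.card (Subgroup.centralizer ({(g : G ⧸ d.N)} : Set (G ⧸ d.N))) := by
  classical
  haveI := d.normal
  haveI : Fintype G := Fintype.ofFinite G
  haveI : Fintype (IrrCharacter G) := Fintype.ofFinite _
  haveI : Fintype (G ⧸ d.N) := Fintype.ofFinite _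
  haveI : Fintype (IrrCharacter (G ⧸ d.N)) := Fintype.ofFinite _
  have h1 := orth2 (G := G) g g
  rw [if_pos (IsConj.refl g)] at h1
  have h2 := orth2 (G := G ⧸ d.N) (g : G ⧸ d.N) (g : G ⧸ d.N)
  rw [if_pos (IsConj.refl _)] at h2
  have h3 := sum_inflate d.N (fun F => F g * conj (F g))
  have h4 : ∑ ψ : IrrCharacter (G ⧸ d.N), (ψ : G ⧸ d.N → ℂ) (g : G ⧸ d.N) * conj ((ψ : G ⧸ d.N → ℂ) (g : G ⧸ d.N)) =
      ∑ ψ : IrrCharacter G, (ψ : G → ℂ) g * conj ((ψ : G → ℂ) g) := by
    have h5 : ∑ ψ : IrrCharacter (G ⧸ d.N), (ψ : G ⧸ d.N → ℂ) (g : G ⧸ d.N) * conj ((ψ : G ⧸ d.N → ℂ) (g : G ⧸ d.N)) =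
      ∑ ψ ∈ Finset.univ.filter (fun ψ : IrrCharacter G => ∀ n ∈ d.N, (ψ : G → ℂ) n = (ψ : G → ℂ) 1), (ψ : G → ℂ) g * conj ((ψ : G → ℂ) g) := h3
    rw [h5]
    apply Finset.sum_subset (Finset.subset_univ _)
    intro ψ _ hψ
    simp only [Finset.mem_filter, Finset.mem_univ, true_and] at hψ
    have h6 : ψ = χ := by
      by_contra hne
      exact hψ fun n hn => (d.mem_iff_ker n).1 hn ψ hne
    rw [h6]
    have : (χ : G → ℂ) g = 0 := by
      by_contra h
      exact hg ((d.mem_iff g).2 h)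
    rw [this, zero_mul]
  rw [h1, h2] at h4
  exact_mod_cast h4.symm

end Data

end Cfsg.Agent.H26.Gagola
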