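import Mathlib
import Cfsg.Agent.H26_Gagola
import Cfsg.Agent.H26_Cols
import Cfsg.Agent.H26_FS
import Cfsg.Agent.H10_BlockMain
import Cfsg.Agent.H4_BaerSuzuki
import Cfsg.Agent.H9_FrobKer
import Cfsg.Agent.H11_Cores

/-!
# H26_Gag2: Gagola characters with `N = O_p(G)`
-/

set_option autoImplicit false

namespace Cfsg.Agent.H26.Gagola

open Cfsg Cfsg.Agent.H3.CharIrr Cfsg.Agent.H3.CharComplete Cfsg.Agent.H3.CharInd Cfsg.Agent.H26.Basic

open scoped ComplexConjugate

variable {G : Type*} [Group G] [Finite G] {χ : IrrCharacter G}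

namespace Data

variable (d : Data χ)

theorem val_zero {g : G} (hg : g ∉ d.N) : (χ : G → ℂ) g = 0 := by
  by_contra h
  exact hg ((d.mem_iff g).2 h)

theorem camina {g n : G} (hg : g ∉ d.N) (hn : n ∈ d.N) : IsConj g (g * n) := by
  apply Cfsg.Agent.H26.Cols.isConj_of_char_eq
  intro ψ
  by_cases hψ : ψ = χ
  · rw [hψ, d.val_zero hg, d.val_zero]
    intro h
    exact hg ((Subgroup.mul_mem_cancel_right _ hn).1 h)
  · have h1 : g * n * g⁻¹ ∈ d.N := d.normal.conj_mem n hn g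
    have h2 := Cfsg.Agent.H3.CharQuot.IsChar.mul_ker (IsIrr.isCharacter ψ.2) ((d.mem_iff_ker _).1 h1 ψ hψ) g
    rw [inv_mul_cancel_right] at h2
    exact h2.symm

theorem comm {a b : G} (ha : a ∈ d.N) (hb : b ∈ d.N) : a * b = b * a :=
  congrArg Subtype.val (d.abelian ⟨a, ha⟩ ⟨b, hb⟩)

theorem card_cent {y : G} (hy : y ∈ d.N) (hy1 : y ≠ 1) :
    Nat.card (Subgroup.centralizer ({y} : Set G)) = d.e ^ 2 * (d.k + 1) := by
  have h1 := Subgroup.card_mul_index (Subgroup.centralizer ({y} : Set G))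
  rw [d.index_of_mem hy hy1, d.cardG] at h1
  exact Nat.eq_of_mul_eq_mul_right d.kpos (by rw [h1]; ring)

variable {p : ℕ} [hp : Fact p.Prime]

theorem cent_p (hNp : IsPGroup p d.N) {y : G} (hy : y ∈ d.N) (hy1 : y ≠ 1) :
    IsPGroup p (Subgroup.centralizer ({y} : Set G)) := by
  obtain ⟨P, hP⟩ := d.sylow_of_index hNp _ (d.index_of_mem hy hy1)
  rw [← hP]; exact P.isPGroup'

theorem cent_le (hNp : IsPGroup p d.N) (hO : ∀ K : Subgroup G, K.Normal → IsPGroup p K → K ≤ d.N) :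
    Subgroup.centralizer (d.N : Set G) ≤ d.N := by
  haveI := d.normal
  apply hO _ inferInstance
  refine (d.cent_p hNp d.hx d.hx1).to_le (Subgroup.centralizer_le ?_)
  rw [Set.singleton_subset_iff]
  exact d.hx

theorem N_le_cent {y : G} (hy : y ∈ d.N) : d.N ≤ Subgroup.centralizer ({y} : Set G) := by
  intro n hn
  rw [Subgroup.mem_centralizer_singleton_iff]
  exact d.comm hn hy

/-- an involution inverts `N` when `p` is odd -/
theorem inv_N (hp2 : p ≠ 2) (hNp : IsPGroup p d.N) {t : G} (ht : orderOf t = 2) {n : G} (hn : n ∈ d.N) :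
    t * n * t⁻¹ = n⁻¹ := by
  haveI := d.normal
  have htn : t * n * t⁻¹ ∈ d.N := d.normal.conj_mem n hn t
  have hfix : n * (t * n * t⁻¹) = 1 := by
    by_contra hne
    have hmem : n * (t * n * t⁻¹) ∈ d.N := mul_mem hn htn
    have htc : t ∈ Subgroup.centralizer ({n * (t * n * t⁻¹)} : Set G) := by
      rw [Subgroup.mem_centralizer_singleton_iff]
      have ht2 : t * t = 1 := by rw [← pow_two, ← ht]; exact pow_orderOf_eq_one t
      have hti : t⁻¹ = t := inv_eq_of_mul_eq_one_right ht2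
      calc t * (n * (t * n * t⁻¹)) = (t * n * t⁻¹) * (t * t) * n * t⁻¹ := by group
        _ = (t * n * t⁻¹) * n * t⁻¹ := by rw [ht2, mul_one]
        _ = n * (t * n * t⁻¹) * t⁻¹ := by rw [d.comm htn hn]
        _ = n * (t * n * t⁻¹) * t := by rw [hti]
    have h1 := d.cent_p hNp hmem hne
    obtain ⟨j, hj⟩ := h1.exists_orderOf_eq_pow ⟨t, htc⟩
    rw [Subgroup.orderOf_mk, ht] at hj
    have h2 : 2 ∣ p ^ j := ⟨1, by rw [← hj]⟩
    exact hp2 ((Nat.prime_dvd_prime_iff_eq Nat.prime_two hp.out).1 (Nat.prime_two.dvd_of_dvd_pow h2)).symm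
  exact (inv_eq_of_mul_eq_one_right hfix).symm

/-- for odd `p` the character is as small as possible -/
theorem e_odd (hp2 : p ≠ 2) (hNp : IsPGroup p d.N) (hO : ∀ K : Subgroup G, K.Normal → IsPGroup p K → K ≤ d.N) :
    d.e = 1 := by
  classical
  haveI : Fintype G := Fintype.ofFinite G
  haveI := d.normal
  have hcardN : Odd (Nat.card d.N) := by
    obtain ⟨m, hm⟩ := IsPGroup.iff_card.1 hNp
    rw [hm]
    exact (hp.out.odd_of_ne_two hp2).pow
  have heven : 2 ∣ Nat.card G := by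
    rw [d.cardG]
    rw [d.cardN] at hcardN
    have : 2 ∣ d.k := by
      obtain ⟨j, hj⟩ := hcardN
      exact ⟨j, by omega⟩
    exact (this.mul_left _).mul_right _
  haveI : Fact (Nat.Prime 2) := ⟨Nat.prime_two⟩
  obtain ⟨t, ht⟩ := exists_prime_orderOf_dvd_card' 2 heven
  have hinv := fun {n : G} (hn : n ∈ d.N) => d.inv_N hp2 hNp ht hn
  have hCN := d.cent_le hNp hO
  set H := Subgroup.centralizer ({t} : Set G) with hH
  have hdisj : d.N ⊓ H = ⊥ := by
    rw [eq_bot_iff]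
    intro n hn
    obtain ⟨hn1, hn2⟩ := Subgroup.mem_inf.1 hn
    rw [hH, Subgroup.mem_centralizer_singleton_iff] at hn2
    rw [Subgroup.mem_bot]
    have h1 := hinv hn1
    rw [← hn2, mul_inv_cancel_right] at h1
    have h2 : n ^ 2 = 1 := by rw [pow_two]; nth_rewrite 2 [h1]; exact mul_inv_cancel n
    have h3 : orderOf (⟨n, hn1⟩ : d.N) ∣ 2 := orderOf_dvd_of_pow_eq_one (Subtype.ext h2)
    have h4 := orderOf_dvd_natCard (⟨n, hn1⟩ : d.N)
    rcases (Nat.dvd_prime Nat.prime_two).1 h3 with h5 | h5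
    · rw [orderOf_eq_one_iff] at h5
      exact congrArg Subtype.val h5
    · rw [h5] at h4
      exact absurd (even_iff_two_dvd.2 h4) (Nat.not_even_iff_odd.2 hcardN)
  have hsup : ∀ g : G, ∃ m ∈ d.N, m * g ∈ H := by
    intro g
    have h1 : g * t * g⁻¹ * t⁻¹ ∈ d.N := by
      apply hCN
      rw [Subgroup.mem_centralizer_iff]
      intro n hn
      have h2 : t⁻¹ * n * t = n⁻¹ := by
        have ht2 : t * t = 1 := by rw [← pow_two, ← ht]; exact pow_orderOf_eq_one t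
        have hti : t⁻¹ = t := inv_eq_of_mul_eq_one_right ht2
        have h3 := hinv hn
        rw [hti] at h3 ⊢
        exact h3
      have h3 : g⁻¹ * n⁻¹ * g ∈ d.N := by
        have := d.normal.conj_mem n⁻¹ (inv_mem hn) g⁻¹
        rwa [inv_inv] at this
      have h4 := hinv h3
      have h5 : g * t * g⁻¹ * t⁻¹ * n = n * (g * t * g⁻¹ * t⁻¹) := by
        calc g * t * g⁻¹ * t⁻¹ * n = g * t * g⁻¹ * (t⁻¹ * n * t) * t⁻¹ := by group
          _ = g * (t * (g⁻¹ * n⁻¹ * g) * t⁻¹) * (t * g⁻¹ * t⁻¹) := by rw [h2]; group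
          _ = g * (g⁻¹ * n⁻¹ * g)⁻¹ * (t * g⁻¹ * t⁻¹) := by rw [h4]
          _ = n * (g * t * g⁻¹ * t⁻¹) := by group
      exact h5.symm
    -- square root
    obtain ⟨m0, hm0⟩ : ∃ m0 : d.N, m0 ^ 2 = ⟨g * t * g⁻¹ * t⁻¹, h1⟩ :=
      (powCoprime (Nat.coprime_two_right.2 hcardN)).surjective ⟨g * t * g⁻¹ * t⁻¹, h1⟩
    have hm0' : (m0 : G) * m0 = g * t * g⁻¹ * t⁻¹ := by
      have := congrArg Subtype.val hm0
      rw [pow_two] at this
      exact this
    refine ⟨(m0 : G)⁻¹, inv_mem m0.2, ?_⟩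
    rw [hH, Subgroup.mem_centralizer_singleton_iff]
    have h6 := hinv m0.2
    have h7 : (m0 : G)⁻¹ * (g * t * g⁻¹) * m0 = t := by
      calc (m0 : G)⁻¹ * (g * t * g⁻¹) * m0 = (m0 : G)⁻¹ * (g * t * g⁻¹ * t⁻¹) * (t * m0 * t⁻¹) * t := by group
        _ = (m0 : G)⁻¹ * (m0 * m0) * (m0 : G)⁻¹ * t := by rw [← hm0', h6]
        _ = t := by group
    calc (m0 : G)⁻¹ * g * t = ((m0 : G)⁻¹ * (g * t * g⁻¹) * m0) * ((m0 : G)⁻¹ * g) := by group
      _ = t * ((m0 : G)⁻¹ * g) := by rw [h7]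
  have hcompl : Nat.card d.N * Nat.card H = Nat.card G := by
    have h1 : Subgroup.IsComplement' d.N H := by
      apply Subgroup.isComplement'_of_disjoint_and_mul_eq_univ (disjoint_iff.2 hdisj)
      rw [Set.eq_univ_iff_forall]
      intro g
      obtain ⟨m, hm, hmg⟩ := hsup g
      exact Set.mem_mul.2 ⟨m⁻¹, inv_mem hm, m * g, hmg, by group⟩
    exact h1.card_mul
  haveI : Fintype H := Fintype.ofFinite _
  obtain ⟨m, hm⟩ := Cfsg.Agent.H10.BlockMain.sum_char_subgroup (IsIrr.isCharacter χ.2) H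
  rw [Finset.sum_eq_single (1 : H)] at hm
  · rw [Subgroup.coe_one, ← cd_eq] at hm
    have h1 : charDegree (χ : G → ℂ) = Nat.card H * m := by exact_mod_cast hm
    rw [d.deg] at h1
    rw [d.cardN, d.cardG] at hcompl
    have h2 : Nat.card H = d.e ^ 2 * d.k := Nat.eq_of_mul_eq_mul_left (Nat.succ_pos d.k) (by
      rw [Nat.succ_eq_add_one, hcompl]; ring)
    rw [h2] at h1
    have h3 : d.k * d.e * 1 = d.k * d.e * (d.e * m) :=
      (mul_one _).trans (h1.trans (by ring))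
    have h4 := Nat.eq_of_mul_eq_mul_left (Nat.mul_pos d.kpos d.epos) h3
    exact Nat.eq_one_of_mul_eq_one_right h4.symm
  · intro h _ hne
    apply d.val_zero
    intro hN
    apply hne
    apply Subtype.ext
    have h1 : (h : G) ∈ d.N ⊓ H := Subgroup.mem_inf.2 ⟨hN, h.2⟩
    rw [hdisj, Subgroup.mem_bot] at h1
    exact h1
  · intro h; exact absurd (Finset.mem_univ _) h

end Data

end Cfsg.Agent.H26.Gagola
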