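import Mathlib
import Cfsg.Agent.H26_Gag2

/-!
# H26_Gag3: Gagola characters with `N = O_2(G)`
-/

set_option autoImplicit false

namespace Cfsg.Agent.H26.Gagola

open Cfsg Cfsg.Agent.H3.CharIrr Cfsg.Agent.H3.CharComplete Cfsg.Agent.H3.CharInd Cfsg.Agent.H26.Basic

open scoped ComplexConjugate

variable {G : Type*} [Group G] [Finite G] {χ : IrrCharacter G}

namespace Data

variable (d : Data χ)

theorem sq_N (hNp : IsPGroup 2 d.N) {n : G} (hn : n ∈ d.N) : n * n = 1 := by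
  obtain ⟨p, hp, h1, h2⟩ := d.exists_prime
  haveI : Fact p.Prime := ⟨hp⟩
  haveI : Fact (Nat.Prime 2) := ⟨Nat.prime_two⟩
  have hp2 : p = 2 := by
    obtain ⟨a, ha⟩ := IsPGroup.iff_card.1 hNp
    obtain ⟨b, hb⟩ := IsPGroup.iff_card.1 h2
    have hb0 : b ≠ 0 := by
      rintro rfl
      rw [pow_zero, d.cardN] at hb
      have := d.kpos
      omega
    have h3 : p ∣ 2 ^ a := by rw [← ha, hb]; exact dvd_pow_self p hb0
    exact (Nat.prime_dvd_prime_iff_eq hp Nat.prime_two).1 (hp.dvd_of_dvd_pow h3)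
  rw [← pow_two, ← hp2]
  exact h1.2 n hn

section two

variable (hNp : IsPGroup 2 d.N) (hO : ∀ K : Subgroup G, K.Normal → IsPGroup 2 K → K ≤ d.N)

include hNp hO

theorem no_inv {g : G} (hg : g * g = 1) : g ∈ d.N := by
  haveI : Fact (Nat.Prime 2) := ⟨Nat.prime_two⟩
  by_contra hgN
  apply hgN
  apply d.cent_le hNp hO
  rw [Subgroup.mem_centralizer_iff]
  intro n hn
  obtain ⟨c, hc⟩ := isConj_iff.1 (d.camina hgN hn)
  have h1 : (g * n) * (g * n) = 1 := by
    rw [← hc]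
    calc c * g * c⁻¹ * (c * g * c⁻¹) = c * (g * g) * c⁻¹ := by group
      _ = 1 := by rw [hg]; group
  have hgi : g⁻¹ = g := inv_eq_of_mul_eq_one_right hg
  have hni : n⁻¹ = n := inv_eq_of_mul_eq_one_right (d.sq_N hNp hn)
  have h2 : g * n = (g * n)⁻¹ := (inv_eq_of_mul_eq_one_right h1).symm
  rw [mul_inv_rev, hgi, hni] at h2
  exact h2.symm

open Classical in
/-- the number of elements whose square lies in `N` -/
theorem count_A (he : 1 < d.e) [Fintype G] : (Finset.univ.filter fun g : G => g ∉ d.N ∧ g * g ∈ d.N).card = (d.k + 1) * d.k * (1 + d.e) := by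
  haveI : Fact (Nat.Prime 2) := ⟨Nat.prime_two⟩
  have hreal : ∀ g, conj ((χ : G → ℂ) g) = (χ : G → ℂ) g := by
    intro g
    by_cases h1 : g = 1
    · rw [h1, ← cd_eq, Complex.conj_natCast]
    by_cases hg : g ∈ d.N
    · rw [d.val g hg h1, map_neg, Complex.conj_natCast]
    · rw [d.val_zero hg, map_zero]
  have hind := Cfsg.Agent.H26.FS.ind_real χ hreal
  have hsum : ∑ g : G, (χ : G → ℂ) (g * g) = ((d.k + 1) * (d.k * d.e) : ℂ) -
      d.e * ((Finset.univ.filter fun g : G => g ∉ d.N ∧ g * g ∈ d.N).card : ℂ) := by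
    have h1 : ∀ g : G, (χ : G → ℂ) (g * g) = (if g ∈ d.N then ((d.k * d.e : ℕ) : ℂ) else 0) +
        (if g ∉ d.N ∧ g * g ∈ d.N then -(d.e : ℂ) else 0) := by
      intro g
      by_cases hg : g ∈ d.N
      · rw [if_pos hg, if_neg (fun h => h.1 hg), add_zero, d.sq_N hNp hg, ← cd_eq, d.deg]
      · rw [if_neg hg, zero_add]
        by_cases hg2 : g * g ∈ d.N
        · rw [if_pos ⟨hg, hg2⟩]
          apply d.val _ hg2
          intro h
          exact hg (d.no_inv hNp hO h)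
        · rw [if_neg (fun h => hg2 h.2), d.val_zero hg2]
    rw [Finset.sum_congr rfl fun g _ => h1 g, Finset.sum_add_distrib, ← Finset.sum_filter, ← Finset.sum_filter,
      Finset.sum_const, Finset.sum_const, nsmul_eq_mul, nsmul_eq_mul]
    have h2 : (Finset.univ.filter fun g : G => g ∈ d.N).card = d.k + 1 := by
      rw [← d.cardN, Nat.card_eq_fintype_card, Fintype.card_subtype]
    rw [h2]
    push_cast
    ring
  have hG0 : (Nat.card G : ℂ) ≠ 0 := by exact_mod_cast Nat.card_pos.ne'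
  have hkey : ((d.k + 1) * (d.k * d.e) : ℂ) - d.e * ((Finset.univ.filter fun g : G => g ∉ d.N ∧ g * g ∈ d.N).card : ℂ) =
      (Nat.card G : ℂ) ∨ ((d.k + 1) * (d.k * d.e) : ℂ) - d.e * ((Finset.univ.filter fun g : G => g ∉ d.N ∧ g * g ∈ d.N).card : ℂ) =
      -(Nat.card G : ℂ) := by
    rw [← hsum]
    rcases hind with h | h
    · left
      have h2 : (Nat.card G : ℂ)⁻¹ * ∑ g : G, (χ : G → ℂ) (g * g) = 1 := h
      rw [inv_mul_eq_one₀ hG0] at h2
      exact h2.symm
    · right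
      have h2 : (Nat.card G : ℂ)⁻¹ * ∑ g : G, (χ : G → ℂ) (g * g) = -1 := h
      rw [inv_mul_eq_iff_eq_mul₀ hG0] at h2
      rw [h2]; ring
  rw [d.cardG] at hkey
  set a := (Finset.univ.filter fun g : G => g ∉ d.N ∧ g * g ∈ d.N).card with ha
  have hk := d.kpos
  rcases hkey with h | h
  · exfalso
    have h1 : ((d.k + 1) * (d.k * d.e) : ℤ) - d.e * a = (d.e ^ 2 * d.k * (d.k + 1) : ℤ) := by
      have : (((d.k + 1) * (d.k * d.e) - d.e * a : ℤ) : ℂ) = ((d.e ^ 2 * d.k * (d.k + 1) : ℤ) : ℂ) := by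
        push_cast; push_cast at h; exact h
      exact_mod_cast this
    have he' : (1 : ℤ) < d.e := by exact_mod_cast he
    have hk' : (0 : ℤ) < d.k := by exact_mod_cast hk
    have ha' : (0 : ℤ) ≤ a := by positivity
    have h2 : (0 : ℤ) < d.k * (d.k + 1) := by positivity
    nlinarith [mul_pos h2 (by linarith : (0 : ℤ) < d.e), mul_nonneg (by linarith : (0 : ℤ) ≤ d.e) ha',
      mul_pos (mul_pos h2 (by linarith : (0 : ℤ) < d.e)) (by linarith : (0 : ℤ) < d.e - 1)]
  · have h1 : (d.e : ℤ) * ((d.k + 1) * d.k * (1 + d.e)) = d.e * a := by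
      have : ((((d.k + 1) * (d.k * d.e) - d.e * a : ℤ)) : ℂ) = ((-(d.e ^ 2 * d.k * (d.k + 1)) : ℤ) : ℂ) := by
        push_cast; push_cast at h; exact h
      have h3 : ((d.k + 1) * (d.k * d.e) : ℤ) - d.e * a = -(d.e ^ 2 * d.k * (d.k + 1) : ℤ) := by exact_mod_cast this
      linarith [h3]
    have h2 : d.e * ((d.k + 1) * d.k * (1 + d.e)) = d.e * a := by exact_mod_cast h1
    exact (Nat.eq_of_mul_eq_mul_left d.epos h2).symm

end two

end Data

end Cfsg.Agent.H26.Gagola
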