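import Mathlib
import Cfsg.Agent.H26_Gag3

/-!
# H26_Gag4: Gagola characters with `N = O_2(G)`
-/

set_option autoImplicit false

namespace Cfsg.Agent.H26.Gagola

open Cfsg Cfsg.Agent.H3.CharIrr Cfsg.Agent.H3.CharComplete Cfsg.Agent.H3.CharInd Cfsg.Agent.H26.Basic

open scoped ComplexConjugate

variable {G : Type*} [Group G] [Finite G] {χ : IrrCharacter G}

namespace Data

variable (d : Data χ)

section two

variable (hNp : IsPGroup 2 d.N) (hO : ∀ K : Subgroup G, K.Normal → IsPGroup 2 K → K ≤ d.N)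

include hNp hO

open Classical in
theorem exists_small (he : 1 < d.e) : ∃ g : G, g ∉ d.N ∧ g * g ∈ d.N ∧
    Nat.card (d.N ⊓ Subgroup.centralizer ({g} : Set G) : Subgroup G) ≤ d.e := by
  haveI : Fintype G := Fintype.ofFinite G
  haveI : Fact (Nat.Prime 2) := ⟨Nat.prime_two⟩
  by_contra hcon
  push Not at hcon
  set A := Finset.univ.filter fun g : G => g ∉ d.N ∧ g * g ∈ d.N with hA
  set N' := Finset.univ.filter fun n : G => n ∈ d.N ∧ n ≠ 1 with hN'
  have hcA := d.count_A hNp hO he
  -- double counting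
  have hdc : ∑ g ∈ A, (N'.filter fun n => n * g = g * n).card = ∑ n ∈ N', (A.filter fun g => n * g = g * n).card := by
    simp_rw [Finset.card_filter]
    rw [Finset.sum_comm]
  have hcN' : N'.card = d.k := by
    have h1 : N' = (Finset.univ.filter fun n : G => n ∈ d.N).erase 1 := by
      ext n
      rw [hN', Finset.mem_erase, Finset.mem_filter, Finset.mem_filter]
      tauto
    rw [h1, Finset.card_erase_of_mem (by simp [one_mem])]
    have h2 : (Finset.univ.filter fun g : G => g ∈ d.N).card = d.k + 1 := by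
      rw [← d.cardN, Nat.card_eq_fintype_card, Fintype.card_subtype]
    rw [h2]; rfl
  have hleft : ∀ g ∈ A, d.e ≤ (N'.filter fun n => n * g = g * n).card := by
    intro g hg
    obtain ⟨-, hg1, hg2⟩ := Finset.mem_filter.1 hg
    have h1 := hcon g hg1 hg2
    have h2 : Nat.card (d.N ⊓ Subgroup.centralizer ({g} : Set G) : Subgroup G) =
        (N'.filter fun n => n * g = g * n).card + 1 := by
      rw [Nat.card_eq_fintype_card, Fintype.card_subtype]
      have h3 : (Finset.univ.filter fun x : G => x ∈ d.N ⊓ Subgroup.centralizer ({g} : Set G)) =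
          insert 1 (N'.filter fun n => n * g = g * n) := by
        ext x
        rw [Finset.mem_insert, Finset.mem_filter, Finset.mem_filter, Finset.mem_filter, Subgroup.mem_inf,
          Subgroup.mem_centralizer_singleton_iff]
        constructor
        · rintro ⟨-, h4, h5⟩
          by_cases hx : x = 1
          · exact Or.inl hx
          · exact Or.inr ⟨⟨Finset.mem_univ _, h4, hx⟩, h5⟩
        · rintro (rfl | ⟨⟨-, h4, -⟩, h5⟩)
          · exact ⟨Finset.mem_univ _, one_mem _, by rw [one_mul, mul_one]⟩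
          · exact ⟨Finset.mem_univ _, h4, h5⟩
      rw [h3, Finset.card_insert_of_notMem]
      intro h4
      exact (Finset.mem_filter.1 (Finset.mem_filter.1 h4).1).2.2 rfl
    omega
  have hright : ∀ n ∈ N', (A.filter fun g => n * g = g * n).card + (d.k + 1) ≤ d.e ^ 2 * (d.k + 1) := by
    intro n hn
    obtain ⟨-, hn1, hn2⟩ := Finset.mem_filter.1 hn
    have h1 := d.card_cent hn1 hn2
    rw [← h1, Nat.card_eq_fintype_card, Fintype.card_subtype]
    have h2 : (Finset.univ.filter fun g : G => g ∈ d.N).card = d.k + 1 := by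
      rw [← d.cardN, Nat.card_eq_fintype_card, Fintype.card_subtype]
    rw [← h2, ← Finset.card_union_of_disjoint]
    · apply Finset.card_le_card
      intro x hx
      rw [Finset.mem_filter, Subgroup.mem_centralizer_singleton_iff]
      refine ⟨Finset.mem_univ _, ?_⟩
      rcases Finset.mem_union.1 hx with h | h
      · exact (Finset.mem_filter.1 h).2.symm
      · exact d.comm (Finset.mem_filter.1 h).2 hn1
    · rw [Finset.disjoint_left]
      intro x hx hx'
      exact (Finset.mem_filter.1 (Finset.mem_filter.1 hx).1).2.1 (Finset.mem_filter.1 hx').2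
  have h1 : A.card * d.e ≤ ∑ g ∈ A, (N'.filter fun n => n * g = g * n).card := by
    rw [← smul_eq_mul]
    exact Finset.card_nsmul_le_sum _ _ _ hleft
  have h2 : ∑ n ∈ N', ((A.filter fun g => n * g = g * n).card + (d.k + 1)) ≤ N'.card * (d.e ^ 2 * (d.k + 1)) := by
    rw [← smul_eq_mul]
    exact Finset.sum_le_card_nsmul _ _ _ hright
  rw [Finset.sum_add_distrib, Finset.sum_const, smul_eq_mul, hcN', ← hdc] at h2
  rw [hcA] at h1
  have h3 : (d.k + 1) * d.k * (1 + d.e) * d.e + d.k * (d.k + 1) ≤ d.k * (d.e ^ 2 * (d.k + 1)) := by omega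
  have hk := d.kpos
  have h4 : (d.k + 1) * d.k * (1 + d.e) * d.e + d.k * (d.k + 1) =
      d.k * (d.e ^ 2 * (d.k + 1)) + d.k * (d.k + 1) * (d.e + 1) := by ring
  have h5 : 0 < d.k * (d.k + 1) * (d.e + 1) := by positivity
  omega

/-- `|N| < |C_N(g)| ^ 2` -/
theorem card_lt_sq {g : G} (hg : g ∉ d.N) (hg2 : g * g ∈ d.N) :
    d.k + 1 < (Nat.card (d.N ⊓ Subgroup.centralizer ({g} : Set G) : Subgroup G)) ^ 2 := by
  classical
  haveI : Fact (Nat.Prime 2) := ⟨Nat.prime_two⟩
  haveI := d.normal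
  set C := (d.N ⊓ Subgroup.centralizer ({g} : Set G) : Subgroup G) with hC
  let φ : d.N →* d.N :=
    { toFun := fun n => ⟨g⁻¹ * n * g * n, mul_mem (by
        have := d.normal.conj_mem n n.2 g⁻¹
        rwa [inv_inv] at this) n.2⟩
      map_one' := Subtype.ext (by simp)
      map_mul' := fun a b => Subtype.ext (by
        change g⁻¹ * ((a : G) * b) * g * ((a : G) * b) = (g⁻¹ * a * g * a) * (g⁻¹ * b * g * b)
        have h1 : g⁻¹ * (b : G) * g ∈ d.N := by
          have := d.normal.conj_mem b b.2 g⁻¹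
          rwa [inv_inv] at this
        have h2 := d.comm h1 a.2
        calc g⁻¹ * ((a : G) * b) * g * ((a : G) * b) = (g⁻¹ * a * g) * ((g⁻¹ * b * g) * a) * b := by group
          _ = (g⁻¹ * a * g) * (a * (g⁻¹ * b * g)) * b := by rw [h2]
          _ = (g⁻¹ * a * g * a) * (g⁻¹ * b * g * b) := by group) }
  have hφ : ∀ n : d.N, ((φ n : d.N) : G) = g⁻¹ * n * g * n := fun _ => rfl
  have hker : Nat.card φ.ker = Nat.card C := by
    refine Nat.card_congr
      { toFun := fun x => ⟨x.1, ?_⟩
        invFun := fun x => ⟨⟨x.1, (Subgroup.mem_inf.1 x.2).1⟩, ?_⟩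
        left_inv := fun _ => rfl
        right_inv := fun _ => rfl }
    · rw [hC, Subgroup.mem_inf, Subgroup.mem_centralizer_singleton_iff]
      refine ⟨x.1.2, ?_⟩
      have h1 := congrArg Subtype.val (MonoidHom.mem_ker.1 x.2)
      rw [hφ] at h1
      have h2 : ((x.1 : d.N) : G) * (x.1 : d.N) = 1 := d.sq_N hNp x.1.2
      have h3 : g⁻¹ * ((x.1 : d.N) : G) * g = (x.1 : d.N) := by
        have h4 : g⁻¹ * ((x.1 : d.N) : G) * g = g⁻¹ * ((x.1 : d.N) : G) * g * (x.1 : d.N) * ((x.1 : d.N) : G)⁻¹ := by group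
        rw [h4, h1]
        change 1 * ((x.1 : d.N) : G)⁻¹ = _
        rw [one_mul]; exact inv_eq_of_mul_eq_one_right h2
      calc ((x.1 : d.N) : G) * g = g * (g⁻¹ * ((x.1 : d.N) : G) * g) := by group
        _ = g * ((x.1 : d.N) : G) := by rw [h3]
    · rw [MonoidHom.mem_ker]
      apply Subtype.ext
      rw [hφ]
      change g⁻¹ * (x : G) * g * (x : G) = 1
      have h1 := (Subgroup.mem_centralizer_singleton_iff.1 (Subgroup.mem_inf.1 x.2).2)
      rw [mul_assoc g⁻¹, h1, inv_mul_cancel_left]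
      exact d.sq_N hNp (Subgroup.mem_inf.1 x.2).1
  have hrange : Nat.card φ.range < Nat.card C := by
    have hle : φ.range.map d.N.subtype ≤ C := by
      rintro _ ⟨_, ⟨n, rfl⟩, rfl⟩
      rw [hC, Subgroup.mem_inf, Subgroup.mem_centralizer_singleton_iff]
      refine ⟨(φ n).2, ?_⟩
      change ((φ n : d.N) : G) * g = g * ((φ n : d.N) : G)
      rw [hφ]
      have h1 : g⁻¹ * (n : G) * g ∈ d.N := by
        have := d.normal.conj_mem n n.2 g⁻¹
        rwa [inv_inv] at this
      have h2 := d.comm hg2 n.2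
      have h3 := d.comm h1 n.2
      have h4 : g⁻¹ * (g⁻¹ * n * g) * g = n := by
        calc g⁻¹ * (g⁻¹ * n * g) * g = (g * g)⁻¹ * (n * (g * g)) := by group
          _ = (g * g)⁻¹ * ((g * g) * n) := by rw [h2]
          _ = n := by group
      calc g⁻¹ * n * g * n * g = g * (g⁻¹ * (g⁻¹ * n * g) * g) * (g⁻¹ * n * g) := by group
        _ = g * n * (g⁻¹ * n * g) := by rw [h4]
        _ = g * ((g⁻¹ * n * g) * n) := by rw [h3]; group
        _ = g * (g⁻¹ * n * g * n) := by group
    have hne : g * g ∉ φ.range.map d.N.subtype := by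
      rintro ⟨_, ⟨n, rfl⟩, h⟩
      have h1 : g⁻¹ * (n : G) * g * n = g * g := h
      apply hg
      have h2 : (g * n) * (g * n) = 1 := by
        calc (g * n) * (g * n) = (g * g) * (g⁻¹ * n * g * n) := by group
          _ = (g * g) * (g * g) := by rw [h1]
          _ = 1 := d.sq_N hNp hg2
      have h3 := d.no_inv hNp hO h2
      exact (Subgroup.mul_mem_cancel_right _ n.2).1 h3
    have hgC : g * g ∈ C := by
      rw [hC, Subgroup.mem_inf, Subgroup.mem_centralizer_singleton_iff]
      exact ⟨hg2, by group⟩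
    have hlt : φ.range.map d.N.subtype < C := lt_of_le_of_ne hle (fun h => hne (h ▸ hgC))
    have h1 := Cfsg.Agent.H11.Cores.card_lt_card hlt
    have h2 : Nat.card (φ.range.map d.N.subtype : Subgroup G) = Nat.card φ.range :=
      (Nat.card_congr (φ.range.equivMapOfInjective _ (Subgroup.subtype_injective _)).toEquiv).symm
    omega
  have hmul : Nat.card φ.ker * Nat.card φ.range = d.k + 1 := by
    rw [← d.cardN, ← Subgroup.card_mul_index φ.ker, Subgroup.index_ker]
  rw [← hmul, hker, pow_two]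
  exact Nat.mul_lt_mul_of_pos_left hrange Nat.card_pos

/-- centralizers of involutions of `G ⧸ N` are 2-groups -/
theorem cit {g : G} (hg : g ∉ d.N) (hg2 : g * g ∈ d.N) (K : Subgroup G) (hK : ∀ y ∈ K, y * g * y⁻¹ * g⁻¹ ∈ d.N) :
    IsPGroup 2 K := by
  classical
  haveI : Fact (Nat.Prime 2) := ⟨Nat.prime_two⟩
  haveI := d.normal
  apply IsPGroup.of_card (n := (Nat.card K).primeFactorsList.length)
  apply Nat.eq_prime_pow_of_unique_prime_dvd Nat.card_pos.ne'
  intro r hr hrK
  by_contra hr2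
  haveI : Fact r.Prime := ⟨hr⟩
  obtain ⟨⟨y, hy⟩, hyo⟩ := exists_prime_orderOf_dvd_card' r hrK
  rw [Subgroup.orderOf_mk] at hyo
  have hyN := hK y hy
  -- action on the coset
  haveI : Fintype d.N := Fintype.ofFinite _
  let f : Function.End d.N := fun n => ⟨y * (n : G) * y⁻¹ * (y * g * y⁻¹ * g⁻¹), mul_mem (d.normal.conj_mem n n.2 y) hyN⟩
  have hf : ∀ (j : ℕ) (n : d.N), (((f ^ j : Function.End d.N) n : d.N) : G) * g = y ^ j * (n * g) * (y ^ j)⁻¹ := by
    intro j
    induction j with
    | zero => intro n; rw [pow_zero, pow_zero, inv_one, mul_one, one_mul]; rfl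
    | succ j ih =>
      intro n
      rw [pow_succ' f j]
      change y * (((f ^ j : Function.End d.N) n : d.N) : G) * y⁻¹ * (y * g * y⁻¹ * g⁻¹) * g = _
      calc y * (((f ^ j : Function.End d.N) n : d.N) : G) * y⁻¹ * (y * g * y⁻¹ * g⁻¹) * g =
          y * ((((f ^ j : Function.End d.N) n : d.N) : G) * g) * y⁻¹ := by group
        _ = y ^ (j + 1) * (n * g) * (y ^ (j + 1))⁻¹ := by rw [ih, pow_succ']; group
  have hfr : f ^ r ^ 1 = 1 := by
    rw [pow_one]
    funext n
    apply Subtype.ext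
    have h1 := hf r n
    have h2 : y ^ r = 1 := by rw [← hyo]; exact pow_orderOf_eq_one y
    rw [h2, one_mul, inv_one, mul_one] at h1
    exact mul_right_cancel h1
  have h1 := Equiv.Perm.card_fixedPoints_modEq (p := r) (n := 1) hfr
  have h2 : 0 < Fintype.card f.fixedPoints := by
    by_contra hcon
    have h3 : Fintype.card f.fixedPoints = 0 := by omega
    rw [h3] at h1
    have h4 : r ∣ Fintype.card d.N := (Nat.modEq_zero_iff_dvd).1 h1
    rw [← Nat.card_eq_fintype_card] at h4
    obtain ⟨m, hm⟩ := IsPGroup.iff_card.1 hNp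
    rw [hm] at h4
    exact hr2 ((Nat.prime_dvd_prime_iff_eq hr Nat.prime_two).1 (hr.dvd_of_dvd_pow h4))
  obtain ⟨⟨n, hn⟩⟩ := Fintype.card_pos_iff.1 h2
  have h3 := hf 1 n
  have h4 : (f ^ 1 : Function.End d.N) n = n := by rw [pow_one]; exact hn
  rw [h4, pow_one] at h3
  -- the fixed element
  set x : G := (n : G) * g with hx
  have hxN : x ∉ d.N := fun h => hg ((Subgroup.mul_mem_cancel_left _ n.2).1 h)
  have hx2 : x * x ∈ d.N := by
    have : x * x = n * (g * n * g⁻¹) * (g * g) := by rw [hx]; group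
    rw [this]
    exact mul_mem (mul_mem n.2 (d.normal.conj_mem n n.2 g)) hg2
  have hxx : x * x ≠ 1 := fun h => hxN (d.no_inv hNp hO h)
  have hyx : y * x = x * y := by
    have : y * x * y⁻¹ * y = x * y := by rw [← h3]
    rwa [inv_mul_cancel_right] at this
  have hyc : y ∈ Subgroup.centralizer ({x * x} : Set G) := by
    rw [Subgroup.mem_centralizer_singleton_iff]
    calc y * (x * x) = (y * x) * x := by group
      _ = (x * y) * x := by rw [hyx]
      _ = x * (y * x) := by group
      _ = x * (x * y) := by rw [hyx]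
      _ = x * x * y := by group
  obtain ⟨j, hj⟩ := (d.cent_p hNp hx2 hxx).exists_orderOf_eq_pow ⟨y, hyc⟩
  rw [Subgroup.orderOf_mk, hyo] at hj
  have h5 : r ∣ 2 ^ j := ⟨1, by rw [← hj, mul_one]⟩
  exact hr2 ((Nat.prime_dvd_prime_iff_eq hr Nat.prime_two).1 (hr.dvd_of_dvd_pow h5))

theorem e_two : d.e = 1 := by
  classical
  haveI : Fact (Nat.Prime 2) := ⟨Nat.prime_two⟩
  haveI := d.normal
  by_contra hne
  have he : 1 < d.e := by have := d.epos; omega
  have hk := d.kpos
  -- `|N| < e ^ 2`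
  have hsq : d.k + 1 < d.e ^ 2 := by
    obtain ⟨g, hg1, hg2, hg3⟩ := d.exists_small hNp hO he
    exact (d.card_lt_sq hNp hO hg1 hg2).trans_le (Nat.pow_le_pow_left hg3 2)
  set P := Subgroup.centralizer ({d.x} : Set G) with hP
  have hPp : IsPGroup 2 P := d.cent_p hNp d.hx d.hx1
  have hNP : d.N ≤ P := d.N_le_cent d.hx
  have hPcard : Nat.card P = d.e ^ 2 * (d.k + 1) := d.card_cent d.hx d.hx1
  -- central element of `P / N`
  let π := QuotientGroup.mk' d.N
  have hker : ∀ {y : G}, π y = 1 ↔ y ∈ d.N := fun {y} => QuotientGroup.eq_one_iff y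
  have hmapP : ∀ K : Subgroup G, d.N < K → Nontrivial (K.map π) := by
    intro K hK
    rw [Subgroup.nontrivial_iff_ne_bot]
    intro h
    apply hK.not_ge
    intro y hy
    rw [← hker]
    have : π y ∈ K.map π := Subgroup.mem_map_of_mem _ hy
    rw [h, Subgroup.mem_bot] at this
    exact this
  have hNltP : d.N < P := by
    refine lt_of_le_of_ne hNP fun h => ?_
    have h1 := d.cardN
    rw [h, hPcard] at h1
    have : 1 * (d.k + 1) < d.e ^ 2 * (d.k + 1) := Nat.mul_lt_mul_of_pos_right (by nlinarith) (by omega)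
    omega
  obtain ⟨z, hzP, hzN, hzc⟩ : ∃ z ∈ P, z ∉ d.N ∧ ∀ y ∈ P, z * y * z⁻¹ * y⁻¹ ∈ d.N := by
    haveI := hmapP P hNltP
    have hp' : IsPGroup 2 (P.map π) := hPp.map π
    haveI := hp'.center_nontrivial
    obtain ⟨⟨⟨_, z, hz, rfl⟩, hzc⟩, hz1⟩ := exists_ne (1 : Subgroup.center (P.map π))
    refine ⟨z, hz, ?_, ?_⟩
    · intro h
      apply hz1
      apply Subtype.ext
      apply Subtype.ext
      exact hker.2 h
    · intro y hy
      rw [← hker, map_mul, map_mul, map_mul, map_inv, map_inv]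
      have h1 := Subgroup.mem_center_iff.1 hzc ⟨π y, Subgroup.mem_map_of_mem _ hy⟩
      have h2 : π y * π z = π z * π y := congrArg Subtype.val h1
      rw [← h2]; group
  set X := d.N ⊔ Subgroup.zpowers z with hX
  have hXP : X ≤ P := sup_le hNP ((Subgroup.zpowers_le).2 hzP)
  obtain ⟨M, hMn, hMp, hXM⟩ := Cfsg.Agent.H4.BaerSuzuki.baer_suzuki (p := 2) X (hPp.to_le hXP) (by
    intro g
    -- the other Sylow subgroup
    have hx2 : g * d.x * g⁻¹ ∈ d.N := d.normal.conj_mem _ d.hx g
    have hx21 : g * d.x * g⁻¹ ≠ 1 := by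
      intro h
      apply d.hx1
      have : d.x = g⁻¹ * (g * d.x * g⁻¹) * g := by group
      rw [this, h]; group
    set P' := Subgroup.centralizer ({g * d.x * g⁻¹} : Set G) with hP'
    have hNP' : d.N ≤ P' := d.N_le_cent hx2
    have hcap : d.N < P ⊓ P' := by
      refine lt_of_le_of_ne (le_inf hNP hNP') fun h => ?_
      have h1 := d.cardN
      rw [h] at h1
      have h2 := Subgroup.card_mul_index (P ⊓ P')
      have h3 : (P ⊓ P').index ≤ P.index * P'.index := Subgroup.index_inf_le
      rw [hP, d.index, hP', d.index_of_mem hx2 hx21] at h3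
      rw [h1, d.cardG] at h2
      have h4 : (d.k + 1) * (P ⊓ P').index ≤ (d.k + 1) * (d.k * d.k) := Nat.mul_le_mul_left _ h3
      rw [h2] at h4
      have h5 : d.e ^ 2 * d.k * (d.k + 1) = (d.k + 1) * (d.k * d.e ^ 2) := by ring
      rw [h5] at h4
      have h6 := Nat.le_of_mul_le_mul_left h4 (by omega)
      have h7 := Nat.le_of_mul_le_mul_left h6 hk
      omega
    obtain ⟨w, hw, hwN, hw2⟩ : ∃ w ∈ P ⊓ P', w ∉ d.N ∧ w * w ∈ d.N := by
      haveI := hmapP _ hcap
      have hp' : IsPGroup 2 ((P ⊓ P').map π) := (hPp.to_le inf_le_left).map π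
      have h2 : 2 ∣ Nat.card ((P ⊓ P').map π) := by
        obtain ⟨n, hn, h⟩ := (hp'.nontrivial_iff_card).1 inferInstance
        rw [h]; exact dvd_pow_self 2 hn.ne'
      obtain ⟨⟨_, w, hw, rfl⟩, hwo'⟩ := exists_prime_orderOf_dvd_card' 2 h2
      have hwo : orderOf (π w) = 2 := by
        rw [← hwo']
        exact Subgroup.orderOf_coe (⟨π w, Subgroup.mem_map_of_mem π hw⟩ : (P ⊓ P').map π)
      refine ⟨w, hw, ?_, ?_⟩
      · intro h
        rw [hker.2 h, orderOf_one] at hwo
        norm_num at hwo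
      · rw [← hker, map_mul, ← pow_two, ← hwo]
        exact pow_orderOf_eq_one _
    apply d.cit hNp hO hwN hw2
    have hcen : X ⊔ X.map (MulAut.conj g).toMonoidHom ≤ (Subgroup.centralizer ({π w} : Set (G ⧸ d.N))).comap π := by
      have hNle : d.N ≤ (Subgroup.centralizer ({π w} : Set (G ⧸ d.N))).comap π := by
        intro n hn
        rw [Subgroup.mem_comap, Subgroup.mem_centralizer_singleton_iff, hker.2 hn, one_mul, mul_one]
      have hcomm_of : ∀ a : G, a * w * a⁻¹ * w⁻¹ ∈ d.N → a ∈ (Subgroup.centralizer ({π w} : Set (G ⧸ d.N))).comap π := by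
        intro a ha
        rw [Subgroup.mem_comap, Subgroup.mem_centralizer_singleton_iff]
        rw [← hker, map_mul, map_mul, map_mul, map_inv, map_inv, mul_inv_eq_one, mul_inv_eq_iff_eq_mul] at ha
        exact ha
      refine sup_le (sup_le hNle ((Subgroup.zpowers_le).2 (hcomm_of z (hzc w hw.1)))) ?_
      rw [hX, Subgroup.map_sup, MonoidHom.map_zpowers]
      refine sup_le ?_ ((Subgroup.zpowers_le).2 ?_)
      · rintro _ ⟨n, hn, rfl⟩
        exact hNle (d.normal.conj_mem n hn g)
      · apply hcomm_of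
        change (g * z * g⁻¹) * w * (g * z * g⁻¹)⁻¹ * w⁻¹ ∈ d.N
        have hwP : g⁻¹ * w * g ∈ P := by
          have h1 := Subgroup.mem_centralizer_singleton_iff.1 hw.2
          rw [hP, Subgroup.mem_centralizer_singleton_iff]
          calc g⁻¹ * w * g * d.x = g⁻¹ * (w * (g * d.x * g⁻¹)) * g := by group
            _ = g⁻¹ * ((g * d.x * g⁻¹) * w) * g := by rw [h1]
            _ = d.x * (g⁻¹ * w * g) := by group
        have h2 := d.normal.conj_mem _ (hzc _ hwP) g
        have h3 : g * (z * (g⁻¹ * w * g) * z⁻¹ * (g⁻¹ * w * g)⁻¹) * g⁻¹ =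
            (g * z * g⁻¹) * w * (g * z * g⁻¹)⁻¹ * w⁻¹ := by group
        rwa [h3] at h2
    intro y hy
    have h1 := Subgroup.mem_centralizer_singleton_iff.1 (Subgroup.mem_comap.1 (hcen hy))
    rw [← hker, map_mul, map_mul, map_mul, map_inv, map_inv, h1]; group)
  exact hzN (hO M hMn hMp (hXM (Subgroup.mem_sup_right (Subgroup.mem_zpowers z))))

end two

end Data

end Cfsg.Agent.H26.Gagola
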