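import Mathlib
import Cfsg.Agent.H26_Gag4

/-!
# H26_Gag5: the doubly transitive Frobenius case
-/

set_option autoImplicit false

namespace Cfsg.Agent.H26.Gagola

open Cfsg Cfsg.Agent.H3.CharIrr Cfsg.Agent.H3.CharComplete Cfsg.Agent.H3.CharInd Cfsg.Agent.H26.Basic
open scoped Pointwise

variable {G : Type*} [Group G] [Finite G] {χ : IrrCharacter G}

theorem frob_of_data (hG : 2 < Nat.card G) (d : Data χ) (he : d.e = 1) :
    ∃ H : Subgroup G, IsFrobeniusComplement H ∧ frobeniusKernel H = (d.N : Set G) ∧ Nat.card H + 1 = Nat.card d.N := by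
  classical
  haveI := d.normal
  have hk := d.kpos
  have hcG := d.cardG
  rw [he, one_pow, one_mul] at hcG
  have hcent : ∀ y ∈ d.N, y ≠ 1 → Subgroup.centralizer ({y} : Set G) = d.N := by
    intro y hy hy1
    symm
    apply Subgroup.eq_of_le_of_card_ge (d.N_le_cent hy)
    rw [d.card_cent hy hy1, he, d.cardN]; omega
  have hidx : d.N.index = d.k := by
    have h1 := Subgroup.card_mul_index d.N
    rw [d.cardN, hcG] at h1
    exact Nat.eq_of_mul_eq_mul_left (Nat.succ_pos d.k) (by rw [Nat.succ_eq_add_one, h1]; ring)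
  obtain ⟨H, hH⟩ := Subgroup.exists_right_complement'_of_coprime (N := d.N) (by
    rw [d.cardN, hidx]
    exact (Nat.coprime_self_add_left (m := d.k) (n := 1)).2 (Nat.coprime_one_left _) |> fun h => by
      rwa [add_comm] at h ⊢)
  have hcH : Nat.card H = d.k := by
    have h1 := hH.card_mul
    rw [d.cardN, hcG] at h1
    exact Nat.eq_of_mul_eq_mul_left (Nat.succ_pos d.k) (by rw [Nat.succ_eq_add_one, h1]; ring)
  have hdisj : ∀ a : G, a ∈ d.N → a ∈ H → a = 1 := by
    intro a h1 h2
    have h3 := hH.disjoint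
    have h4 : a ∈ d.N ⊓ H := Subgroup.mem_inf.2 ⟨h1, h2⟩
    rw [disjoint_iff.1 h3, Subgroup.mem_bot] at h4
    exact h4
  have hdec : ∀ g : G, ∃ n ∈ d.N, ∃ h ∈ H, n * h = g := by
    intro g
    have h1 := hH.mul_eq
    have h2 : g ∈ (d.N : Set G) * (H : Set G) := by rw [h1]; trivial
    obtain ⟨n, hn, h, hh, e⟩ := Set.mem_mul.1 h2
    exact ⟨n, hn, h, hh, e⟩
  have hk1 : d.k ≠ 1 := by
    intro h
    rw [hcG, h] at hG
    norm_num at hG
  have hmemconj : ∀ (g x : G), x ∈ MulAut.conj g • H ↔ g⁻¹ * x * g ∈ H := by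
    intro g x
    rw [Subgroup.mem_pointwise_smul_iff_inv_smul_mem]
    change (MulAut.conj g)⁻¹ x ∈ H ↔ _
    rw [← map_inv]
    change g⁻¹ * x * g⁻¹⁻¹ ∈ H ↔ _
    rw [inv_inv]
  have hFC : IsFrobeniusComplement H := by
    refine ⟨?_, ?_, ?_⟩
    · intro h
      rw [h, Subgroup.card_bot] at hcH
      exact hk1 hcH.symm
    · intro h
      exact d.hx1 (hdisj d.x d.hx (by rw [h]; trivial))
    · intro g hg
      rw [eq_bot_iff]
      intro x hx
      obtain ⟨hx1, hx2⟩ := Subgroup.mem_inf.1 hx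
      rw [hmemconj] at hx2
      rw [Subgroup.mem_bot]
      obtain ⟨n, hn, h, hh, rfl⟩ := hdec g
      have hn1 : n ≠ 1 := by
        rintro rfl
        rw [one_mul] at hg
        exact hg hh
      have hy : n⁻¹ * x * n ∈ H := by
        have h1 := H.mul_mem (H.mul_mem hh hx2) (H.inv_mem hh)
        have e : h * ((n * h)⁻¹ * x * (n * h)) * h⁻¹ = n⁻¹ * x * n := by group
        rwa [e] at h1
      have h2 : (n⁻¹ * x * n) * x⁻¹ = 1 := by
        apply hdisj
        · have e : (n⁻¹ * x * n) * x⁻¹ = n⁻¹ * (x * n * x⁻¹) := by group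
          rw [e]
          exact mul_mem (inv_mem hn) (d.normal.conj_mem n hn x)
        · exact H.mul_mem hy (H.inv_mem hx1)
      have h3 : x ∈ Subgroup.centralizer ({n} : Set G) := by
        rw [Subgroup.mem_centralizer_singleton_iff]
        have h4 : n⁻¹ * x * n = x := mul_inv_eq_one.1 h2
        calc x * n = n * (n⁻¹ * x * n) := by group
          _ = n * x := by rw [h4]
      rw [hcent n hn hn1] at h3
      exact hdisj x h3 hx1
  refine ⟨H, hFC, ?_, by rw [hcH, d.cardN]⟩
  obtain ⟨N', hN', -, hcomp⟩ := Cfsg.Agent.H9.FrobKer.frobenius H hFC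
  rw [← hN']
  have hle : d.N ≤ N' := by
    intro n hn
    have h1 : n ∈ (N' : Set G) := by
      rw [hN']
      by_cases hn1 : n = 1
      · exact Or.inl hn1
      · right
        intro g hg
        rw [hmemconj] at hg
        have h2 : g⁻¹ * n * g ∈ d.N := by
          have := d.normal.conj_mem n hn g⁻¹
          rwa [inv_inv] at this
        have h3 := hdisj _ h2 hg
        apply hn1
        have h4 : n = g * (g⁻¹ * n * g) * g⁻¹ := by group
        rw [h4, h3]; group
    exact h1
  have hcard : Nat.card N' = Nat.card d.N := by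
    have h1 := hcomp.card_mul
    have h2 := hH.card_mul
    exact Nat.eq_of_mul_eq_mul_right Nat.card_pos (h1.trans h2.symm)
  rw [Subgroup.eq_of_le_of_card_ge hle hcard.le]

theorem gagola_iff (hG : 2 < Nat.card G) (hχ : Nat.card {C : ConjClasses G // ∃ g ∈ C.carrier, (χ : G → ℂ) g ≠ 0} = 2)
    (p : ℕ) [hp : Fact p.Prime] (N : Subgroup G) [N.Normal] (hN : ∀ g : G, g ∈ N ↔ (χ : G → ℂ) g ≠ 0) (hNp : IsPGroup p N) :
    N = pCore p G ↔ ∃ H : Subgroup G, IsFrobeniusComplement H ∧ frobeniusKernel H = (N : Set G) ∧ Nat.card H + 1 = Nat.card N := by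
  obtain ⟨d⟩ := exists_data hG χ hχ
  have hNd : N = d.N := by
    ext g
    rw [hN, d.mem_iff]
  subst hNd
  constructor
  · intro hcore
    apply frob_of_data hG d
    have hO : ∀ K : Subgroup G, K.Normal → IsPGroup p K → K ≤ d.N := by
      intro K hK hKp
      rw [hcore]
      haveI := hK
      exact Cfsg.Agent.H11.Cores.le_pCore p hKp
    by_cases hp2 : p = 2
    · subst hp2
      exact d.e_two hNp hO
    · exact d.e_odd hp2 hNp hO
  · rintro ⟨H, hFC, hker, hcard⟩
    obtain ⟨N', hN', -, hcomp⟩ := Cfsg.Agent.H9.FrobKer.frobenius H hFC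
    have hNN : N' = d.N := SetLike.coe_injective (hN'.trans hker)
    rw [hNN] at hcomp
    have h1 := hcomp.card_mul
    haveI := d.normal
    have hle : d.N ≤ pCore p G := Cfsg.Agent.H11.Cores.le_pCore p hNp
    have hpc : IsPGroup p (pCore p G) := Cfsg.Agent.H11.Cores.pCore_isPGroup p
    apply Subgroup.eq_of_le_of_card_ge hle
    obtain ⟨m, hm⟩ := IsPGroup.iff_card.1 hpc
    obtain ⟨n, hn⟩ := IsPGroup.iff_card.1 hNp
    have h2 := Subgroup.card_subgroup_dvd_card (pCore p G)
    rw [← h1] at h2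
    have hcop : (Nat.card (pCore p G)).Coprime (Nat.card H) := by
      rw [hm]
      apply Nat.Coprime.pow_left
      rw [Nat.Prime.coprime_iff_not_dvd hp.out]
      intro h3
      have hn0 : n ≠ 0 := by
        rintro rfl
        rw [pow_zero, d.cardN] at hn
        have := d.kpos
        omega
      have h4 : p ∣ Nat.card d.N := by rw [hn]; exact dvd_pow_self p hn0
      rw [← hcard] at h4
      exact hp.out.one_lt.ne' (Nat.dvd_one.1 ((Nat.dvd_add_right h3).1 h4))
    exact Nat.le_of_dvd Nat.card_pos (hcop.dvd_of_dvd_mul_right h2)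

end Cfsg.Agent.H26.Gagola
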