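import Mathlib
import Cfsg.Agent.H26_Galois
import Cfsg.Agent.H3_CycExt
import Cfsg.Agent.H3_Clifford2
import Cfsg.Agent.H25_Glaub2
import Cfsg.Agent.H10_BlockHZ

/-!
# H26_RelG: the relative Glauberman correspondence, group theory and the cyclic case
-/

set_option autoImplicit false
set_option linter.unusedSectionVars false

namespace Cfsg.Agent.H26.RelG

open scoped ComplexConjugate

section grp

variable {L : Type*} [Group L] [Finite L] {p : ℕ} [hp : Fact p.Prime] (K Q D : Subgroup L) [hK : K.Normal]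
  [hQ : Q.Normal] (x : L)

/-- every `p`-element of `K` lies in `Q` -/
theorem mem_of_pelt (hQK : Q ≤ K) (hcop : ¬ p ∣ Q.relIndex K) {u : L} (hu : u ∈ K)
    {n : ℕ} (hun : u ^ p ^ n ∈ Q) : u ∈ Q := by
  have h1 : u ^ (Q.relIndex K) ∈ Q := by
    have h2 : ((⟨u, hu⟩ : K) ^ (Q.relIndex K)) ∈ Q.subgroupOf K := by
      haveI : (Q.subgroupOf K).Normal := inferInstance
      exact Subgroup.pow_index_mem (Q.subgroupOf K) _
    exact h2
  have hc : (Q.relIndex K).Coprime (p ^ n) :=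
    (Nat.Coprime.pow_right n ((hp.out.coprime_iff_not_dvd.2 hcop).symm))
  have h3 : (u : L ⧸ Q) ^ (Q.relIndex K) = 1 := by
    rw [← QuotientGroup.mk_pow]; exact (QuotientGroup.eq_one_iff _).2 h1
  have h4 : (u : L ⧸ Q) ^ (p ^ n) = 1 := by
    rw [← QuotientGroup.mk_pow]; exact (QuotientGroup.eq_one_iff _).2 hun
  have h5 : (u : L ⧸ Q) = 1 := by
    have := pow_gcd_eq_one.2 ⟨h3, h4⟩
    rw [Nat.Coprime.gcd_eq_one hc, pow_one] at this
    exact this
  exact (QuotientGroup.eq_one_iff _).1 h5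

/-- uniqueness of fusion -/
theorem fus_uniq (hQK : Q ≤ K) (hcop : ¬ p ∣ Q.relIndex K) (hx : ∃ n, orderOf x = p ^ n)
    (hD : ∀ g : L, g ∈ D ↔ Commute (x : L ⧸ Q) (g : L ⧸ Q)) {u h : L} (hu : u ∈ D) (huK : u * x⁻¹ ∈ K)
    (hh : h ∈ K) (hc : h * u * h⁻¹ ∈ D) : h ∈ D := by
  obtain ⟨n, hn⟩ := hx
  set m := Q.relIndex K with hm
  have hcop' : m.Coprime (orderOf x) := by
    rw [hn]; exact Nat.Coprime.pow_right n ((hp.out.coprime_iff_not_dvd.2 hcop).symm)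
  obtain ⟨N, hN1, hN2⟩ := Nat.chineseRemainder hcop' 0 1
  have hxN : x ^ N = x := by
    have := pow_eq_pow_iff_modEq.2 hN2
    rwa [pow_one] at this
  have hmN : m ∣ N := (Nat.modEq_zero_iff_dvd).1 hN1
  have key : ∀ v : L, v ∈ D → v * x⁻¹ ∈ K → (v : L ⧸ Q) ^ N = (x : L ⧸ Q) := by
    intro v hv hvK
    have h1 : Commute (x : L ⧸ Q) (v : L ⧸ Q) := (hD v).1 hv
    have h2 : (v : L ⧸ Q) = ((v * x⁻¹ : L) : L ⧸ Q) * (x : L ⧸ Q) := by
      rw [← QuotientGroup.mk_mul, inv_mul_cancel_right]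
    have h3 : Commute ((v * x⁻¹ : L) : L ⧸ Q) (x : L ⧸ Q) := by
      rw [QuotientGroup.mk_mul]
      exact Commute.mul_left h1.symm (by rw [QuotientGroup.mk_inv]; exact (Commute.refl _).inv_left)
    rw [h2, h3.mul_pow]
    have h4 : ((v * x⁻¹ : L) : L ⧸ Q) ^ N = 1 := by
      obtain ⟨t, rfl⟩ := hmN
      rw [pow_mul]
      have h5 : ((v * x⁻¹ : L) : L ⧸ Q) ^ m = 1 := by
        rw [← QuotientGroup.mk_pow, QuotientGroup.eq_one_iff]
        have h6 : ((⟨v * x⁻¹, hvK⟩ : K) ^ m) ∈ Q.subgroupOf K := by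
          haveI : (Q.subgroupOf K).Normal := inferInstance
          exact Subgroup.pow_index_mem (Q.subgroupOf K) _
        exact h6
      rw [h5, one_pow]
    rw [h4, one_mul, ← QuotientGroup.mk_pow, hxN]
  have h1 := key u hu huK
  have h2 : (h * u * h⁻¹) * x⁻¹ ∈ K := by
    have : (h * u * h⁻¹) * x⁻¹ = h * (u * x⁻¹) * (x * h⁻¹ * x⁻¹) := by group
    rw [this]
    exact K.mul_mem (K.mul_mem hh huK) (hK.conj_mem _ (K.inv_mem hh) x)
  have h3 := key _ hc h2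
  rw [hD]
  have h4 : ((h * u * h⁻¹ : L) : L ⧸ Q) ^ N = (h : L ⧸ Q) * (u : L ⧸ Q) ^ N * (h : L ⧸ Q)⁻¹ := by
    rw [QuotientGroup.mk_mul, QuotientGroup.mk_mul, QuotientGroup.mk_inv, conj_pow]
  rw [h4, h1] at h3
  have h5 : (h : L ⧸ Q) * (x : L ⧸ Q) = (x : L ⧸ Q) * (h : L ⧸ Q) := by
    rw [mul_inv_eq_iff_eq_mul] at h3; exact h3
  exact h5.symm

theorem exists_fus (hQK : Q ≤ K) (hcop : ¬ p ∣ Q.relIndex K) (hx : ∃ n, orderOf x = p ^ n)
    (hQp : IsPGroup p Q) (hgen : ∀ g : L, ∃ i : ℤ, g * x ^ (-i) ∈ K)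
    (hD : ∀ g : L, g ∈ D ↔ Commute (x : L ⧸ Q) (g : L ⧸ Q)) {u : L} (huK : u * x⁻¹ ∈ K) :
    ∃ h ∈ K, h * u * h⁻¹ ∈ D := by
  classical
  -- the Sylow subgroup
  have hxp : IsPGroup p (Subgroup.zpowers x) := by
    obtain ⟨n, hn⟩ := hx
    apply IsPGroup.of_card (n := n)
    rw [Nat.card_zpowers, hn]
  set X := Q ⊔ Subgroup.zpowers x with hX
  have hXp : IsPGroup p X := IsPGroup.to_sup_of_normal_left hQp hxp
  have hKX : K ⊔ X = ⊤ := by
    rw [eq_top_iff]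
    intro g _
    obtain ⟨i, hi⟩ := hgen g
    have : g = (g * x ^ (-i)) * x ^ i := by group
    rw [this]
    exact Subgroup.mul_mem_sup hi (Subgroup.mem_sup_right (Subgroup.zpow_mem _ (Subgroup.mem_zpowers x) i))
  have hidx : ¬ p ∣ X.index := by
    have h1 : X.index ∣ Q.relIndex K := by
      have h2 : X.index = X.relIndex K := by
        have e1 : K.relIndex X = K.index := by
          have := Subgroup.relIndex_sup_left (K := K) (H := X)
          rw [hKX, Subgroup.relIndex_top_right] at this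
          exact this.symm
        have e2 : (K ⊓ X).relIndex X * X.index = (K ⊓ X).index := Subgroup.relIndex_mul_index inf_le_right
        have e3 : (K ⊓ X).relIndex K * K.index = (K ⊓ X).index := Subgroup.relIndex_mul_index inf_le_left
        rw [Subgroup.inf_relIndex_right, e1] at e2
        rw [Subgroup.inf_relIndex_left] at e3
        have e4 : K.index * X.index = X.relIndex K * K.index := by rw [e2, e3]
        have e5 : 0 < K.index := Nat.pos_of_ne_zero Subgroup.index_ne_zero_of_finite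
        exact Nat.eq_of_mul_eq_mul_left e5 (by rw [e4, mul_comm])
      rw [h2]
      exact Subgroup.relIndex_dvd_of_le_left K le_sup_left
    exact fun h => hcop (h.trans h1)
  let S : Sylow p L := IsPGroup.toSylow hXp hidx
  have hS : (S : Subgroup L) = X := rfl
  -- decompose u
  obtain ⟨a, b, hab, hcomm, ha, hb⟩ := Cfsg.Agent.H10.PPart.exists_ppart (p := p) u
  obtain ⟨na, hna⟩ := ha
  -- b in K
  have hbK : b ∈ K := by
    obtain ⟨n, hn⟩ := hx
    have h1 : (b : L ⧸ K) ^ (p ^ n) = 1 := by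
      obtain ⟨i, hi⟩ := hgen b
      have h2 : (b : L ⧸ K) = (x : L ⧸ K) ^ i := by
        rw [← QuotientGroup.mk_zpow]
        apply QuotientGroup.eq.2
        have h3 : b⁻¹ * x ^ i = b⁻¹ * (b * x ^ (-i))⁻¹ * b := by group
        rw [h3]
        have := hK.conj_mem _ (K.inv_mem hi) b⁻¹
        rwa [inv_inv] at this
      rw [h2, ← zpow_natCast, ← zpow_mul, mul_comm, zpow_mul, zpow_natCast, ← QuotientGroup.mk_pow, ← hn,
        pow_orderOf_eq_one, QuotientGroup.mk_one, one_zpow]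
    have h2 : (b : L ⧸ K) ^ (orderOf b) = 1 := by
      rw [← QuotientGroup.mk_pow, pow_orderOf_eq_one, QuotientGroup.mk_one]
    have h3 := pow_gcd_eq_one.2 ⟨h1, h2⟩
    rw [Nat.Coprime.gcd_eq_one (Nat.Coprime.pow_left n ((hp.out.coprime_iff_not_dvd.2 hb))), pow_one] at h3
    exact (QuotientGroup.eq_one_iff _).1 h3
  have haK : a * x⁻¹ ∈ K := by
    have : a * x⁻¹ = (u * x⁻¹) * (x * b⁻¹ * x⁻¹) := by rw [← hab]; group
    rw [this]
    exact K.mul_mem huK (hK.conj_mem _ (K.inv_mem hbK) x)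
  -- move a into X
  obtain ⟨g, hg⟩ : ∃ g : L, g * a * g⁻¹ ∈ X := by
    have h1 : IsPGroup p (Subgroup.zpowers a) := by
      apply IsPGroup.of_card (n := na)
      rw [Nat.card_zpowers, hna]
    obtain ⟨T, hT⟩ := h1.exists_le_sylow
    obtain ⟨g, hg⟩ := MulAction.exists_smul_eq L T S
    refine ⟨g, ?_⟩
    have h2 : g * a * g⁻¹ ∈ ((g • T : Sylow p L) : Subgroup L) := by
      rw [Sylow.coe_subgroup_smul]
      exact Subgroup.mem_map.2 ⟨a, hT (Subgroup.mem_zpowers a), rfl⟩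
    rw [hg] at h2
    exact h2
  obtain ⟨i, hi⟩ := hgen g
  set h := x ^ (-i) * g with hh
  have hhK : h ∈ K := by
    have : h = x ^ (-i) * (g * x ^ (-i)) * (x ^ (-i))⁻¹ := by rw [hh]; group
    rw [this]
    exact hK.conj_mem _ hi _
  have hhX : h * a * h⁻¹ ∈ X := by
    have : h * a * h⁻¹ = x ^ (-i) * (g * a * g⁻¹) * (x ^ (-i))⁻¹ := by rw [hh]; group
    rw [this]
    have hxX : x ^ (-i) ∈ X := Subgroup.mem_sup_right (Subgroup.zpow_mem _ (Subgroup.mem_zpowers x) _)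
    exact X.mul_mem (X.mul_mem hxX hg) (X.inv_mem hxX)
  have hwK : (h * a * h⁻¹) * x⁻¹ ∈ K := by
    have : (h * a * h⁻¹) * x⁻¹ = h * (a * x⁻¹) * (x * h⁻¹ * x⁻¹) := by group
    rw [this]
    exact K.mul_mem (K.mul_mem hhK haK) (hK.conj_mem _ (K.inv_mem hhK) x)
  have hwQ : (h * a * h⁻¹) * x⁻¹ ∈ Q := by
    have h1 : (h * a * h⁻¹) * x⁻¹ ∈ X :=
      X.mul_mem hhX (X.inv_mem (Subgroup.mem_sup_right (Subgroup.mem_zpowers x)))
    obtain ⟨n, hn⟩ := hXp ⟨_, h1⟩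
    have h2 : ((h * a * h⁻¹) * x⁻¹) ^ p ^ n = 1 := congrArg Subtype.val hn
    exact mem_of_pelt K Q hQK hcop hwK (n := n) (by rw [h2]; exact Q.one_mem)
  refine ⟨h, hhK, ?_⟩
  rw [hD]
  have e1 : ((h * a * h⁻¹ : L) : L ⧸ Q) = (x : L ⧸ Q) := by
    apply QuotientGroup.eq.2
    have : (h * a * h⁻¹)⁻¹ * x = (h * a * h⁻¹)⁻¹ * ((h * a * h⁻¹) * x⁻¹)⁻¹ * ((h * a * h⁻¹)⁻¹)⁻¹ := by group
    rw [this]
    exact hQ.conj_mem _ (Q.inv_mem hwQ) _
  have e2 : ((h * u * h⁻¹ : L) : L ⧸ Q) = (x : L ⧸ Q) * ((h * b * h⁻¹ : L) : L ⧸ Q) := by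
    rw [← e1, ← QuotientGroup.mk_mul, ← hab]; congr 1; group
  rw [e2]
  apply Commute.mul_right (Commute.refl _)
  rw [← e1]
  have h3 : (h * a * h⁻¹) * (h * b * h⁻¹) = (h * b * h⁻¹) * (h * a * h⁻¹) := by
    have := hcomm.eq
    calc _ = h * (a * b) * h⁻¹ := by group
      _ = h * (b * a) * h⁻¹ := by rw [this]
      _ = _ := by group
  show _ * _ = _ * _
  rw [← QuotientGroup.mk_mul, h3, QuotientGroup.mk_mul]

end grp

section sums

variable {L : Type*} [Group L] [Fintype L] {p : ℕ} [hp : Fact p.Prime] (K Q D : Subgroup L) [hK : K.Normal]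
  [hQ : Q.Normal] (x : L)

/-- the data of the relative cyclic situation -/
structure Dat (p : ℕ) (K Q D : Subgroup L) [Q.Normal] (x : L) : Prop where
  hQK : Q ≤ K
  hcop : ¬ p ∣ Q.relIndex K
  hx : ∃ n, orderOf x = p ^ n
  hQp : IsPGroup p Q
  hgen : ∀ g : L, ∃ i : ℤ, g * x ^ (-i) ∈ K
  hD : ∀ g : L, g ∈ D ↔ Commute (x : L ⧸ Q) (g : L ⧸ Q)

variable {K Q D x}

theorem Dat.mem (h : Dat p K Q D x) : x ∈ D := (h.hD x).2 (Commute.refl _)

theorem Dat.le (h : Dat p K Q D x) : Q ≤ D := by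
  intro q hq
  rw [h.hD, (QuotientGroup.eq_one_iff q).2 hq]
  exact Commute.one_right _

theorem Dat.pow (h : Dat p K Q D x) {s : ℕ} (h1 : s.Coprime (orderOf x)) : Dat p K Q D (x ^ s) := by
  obtain ⟨t, ht⟩ : ∃ t : ℤ, (x ^ s) ^ t = x := by
    have h3 : Subgroup.zpowers (x ^ s) = Subgroup.zpowers x := by
      apply Subgroup.eq_of_le_of_card_ge
      · rw [Subgroup.zpowers_le]; exact Subgroup.pow_mem _ (Subgroup.mem_zpowers x) s
      · rw [Nat.card_zpowers, Nat.card_zpowers, orderOf_pow, Nat.Coprime.gcd_eq_one h1.symm, Nat.div_one]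
    have h4 : x ∈ Subgroup.zpowers (x ^ s) := by rw [h3]; exact Subgroup.mem_zpowers x
    exact Subgroup.mem_zpowers_iff.1 h4
  refine ⟨h.hQK, h.hcop, ?_, h.hQp, ?_, ?_⟩
  · obtain ⟨n, hn⟩ := h.hx
    refine ⟨n, ?_⟩
    rw [orderOf_pow, Nat.Coprime.gcd_eq_one h1.symm, Nat.div_one, hn]
  · intro g
    obtain ⟨i, hi⟩ := h.hgen g
    refine ⟨t * i, ?_⟩
    have : (x ^ s) ^ (-(t * i)) = x ^ (-i) := by
      rw [← mul_neg, zpow_mul, ht]
    rw [this]; exact hi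
  · intro g
    rw [h.hD]
    constructor
    · intro hc
      rw [QuotientGroup.mk_pow]
      exact hc.pow_left s
    · intro hc
      have : (x : L ⧸ Q) = ((x ^ s : L) : L ⧸ Q) ^ t := by
        rw [← QuotientGroup.mk_zpow, ht]
      rw [this]
      exact hc.zpow_left t

/-- averages of class functions over `K x` and over `(K ∩ D) x` agree -/
theorem Dat.transport (h : Dat p K Q D x) [Fintype K] [Fintype (K.subgroupOf D)] (F : L → ℂ)
    (hF : ∀ k ∈ K, ∀ g, F (k * g * k⁻¹) = F g) :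
    (Nat.card (K.subgroupOf D) : ℂ) * ∑ k : K, F (k * x) =
      (Nat.card K : ℂ) * ∑ c : K.subgroupOf D, F (((c : D) : L) * x) := by
  classical
  let A := K.subgroupOf D
  have hA : ∀ c : A, ((c : D) : L) ∈ K := fun c => Subgroup.mem_subgroupOf.1 c.2
  let φ : K × A → K := fun q => ⟨q.1 * ((q.2 : D) : L) * x * (q.1 : L)⁻¹ * x⁻¹, by
    have : (q.1 : L) * ((q.2 : D) : L) * x * (q.1 : L)⁻¹ * x⁻¹ =
        (q.1 : L) * ((q.2 : D) : L) * (x * (q.1 : L)⁻¹ * x⁻¹) := by group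
    rw [this]
    exact K.mul_mem (K.mul_mem q.1.2 (hA q.2)) (hK.conj_mem _ (K.inv_mem q.1.2) x)⟩
  have h1 : ∑ q : K × A, F ((φ q : L) * x) = (Nat.card K : ℂ) * ∑ c : A, F (((c : D) : L) * x) := by
    have : ∀ q : K × A, F ((φ q : L) * x) = F (((q.2 : D) : L) * x) := by
      intro q
      rw [← hF q.1 q.1.2 (((q.2 : D) : L) * x)]
      congr 1
      show (q.1 : L) * ((q.2 : D) : L) * x * (q.1 : L)⁻¹ * x⁻¹ * x = _
      group
    rw [Finset.sum_congr rfl fun q _ => this q, Fintype.sum_prod_type]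
    show ∑ _k : K, ∑ c : A, F (((c : D) : L) * x) = _
    rw [Finset.sum_const, Finset.card_univ, ← Nat.card_eq_fintype_card, nsmul_eq_mul]
  rw [← h1, ← Finset.sum_fiberwise Finset.univ φ, Finset.mul_sum]
  refine Finset.sum_congr rfl fun k _ => ?_
  have h2 : ∀ q ∈ Finset.univ.filter (fun q => φ q = k), F ((φ q : L) * x) = F (k * x) := by
    intro q hq
    rw [(Finset.mem_filter.1 hq).2]
  rw [Finset.sum_congr rfl h2, Finset.sum_const, nsmul_eq_mul]
  congr 1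
  rw [← Fintype.card_subtype, ← Nat.card_eq_fintype_card]
  norm_cast
  -- the fibre
  obtain ⟨h0, hh0, hh1⟩ := exists_fus K Q D x h.hQK h.hcop h.hx h.hQp h.hgen h.hD
    (u := (k : L) * x) (by rw [mul_inv_cancel_right]; exact k.2)
  -- conjugate of `k x` lying in `D`
  set d := h0 * ((k : L) * x) * h0⁻¹ with hd
  have hdK : d * x⁻¹ ∈ K := by
    have : d * x⁻¹ = h0 * (k : L) * (x * h0⁻¹ * x⁻¹) := by rw [hd]; group
    rw [this]
    exact K.mul_mem (K.mul_mem hh0 k.2) (hK.conj_mem _ (K.inv_mem hh0) x)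
  apply Nat.card_congr
  refine
    { toFun := fun a => ⟨(⟨h0⁻¹ * ((a : D) : L), K.mul_mem (K.inv_mem hh0) (hA a)⟩,
        ⟨⟨((a : D) : L)⁻¹ * d * ((a : D) : L) * x⁻¹,
          D.mul_mem (D.mul_mem (D.mul_mem (D.inv_mem (a : D).2) hh1) (a : D).2) (D.inv_mem h.mem)⟩, ?_⟩), ?_⟩
      invFun := fun q => ⟨⟨h0 * (q.1.1 : L), ?_⟩, ?_⟩
      left_inv := ?_
      right_inv := ?_ }
  · rw [Subgroup.mem_subgroupOf]
    have : ((a : D) : L)⁻¹ * d * ((a : D) : L) * x⁻¹ =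
        ((a : D) : L)⁻¹ * (d * x⁻¹) * (x * ((a : D) : L) * x⁻¹) := by group
    show ((a : D) : L)⁻¹ * d * ((a : D) : L) * x⁻¹ ∈ K
    rw [this]
    exact K.mul_mem (K.mul_mem (K.inv_mem (hA a)) hdK) (hK.conj_mem _ (hA a) x)
  · apply Subtype.ext
    show h0⁻¹ * ((a : D) : L) * (((a : D) : L)⁻¹ * d * ((a : D) : L) * x⁻¹) * x * (h0⁻¹ * ((a : D) : L))⁻¹ * x⁻¹ = k
    rw [hd]; group
  · -- h0 * h in D
    have hq : (q.1.1 : L) * ((q.1.2 : D) : L) * x * (q.1.1 : L)⁻¹ * x⁻¹ = k := congrArg Subtype.val q.2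
    have hc : (h0 * (q.1.1 : L)) * (((q.1.2 : D) : L) * x) * (h0 * (q.1.1 : L))⁻¹ = d := by
      rw [hd, ← hq]; group
    apply fus_uniq K Q D x h.hQK h.hcop h.hx h.hD (u := ((q.1.2 : D) : L) * x)
      (D.mul_mem (q.1.2 : D).2 h.mem) (by rw [mul_inv_cancel_right]; exact hA q.1.2)
      (K.mul_mem hh0 q.1.1.2)
    rw [hc]; exact hh1
  · rw [Subgroup.mem_subgroupOf]
    exact K.mul_mem hh0 q.1.1.2
  · intro a
    apply Subtype.ext
    apply Subtype.ext
    show h0 * (h0⁻¹ * ((a : D) : L)) = _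
    group
  · intro q
    have hq : (q.1.1 : L) * ((q.1.2 : D) : L) * x * (q.1.1 : L)⁻¹ * x⁻¹ = k := congrArg Subtype.val q.2
    apply Subtype.ext
    apply Prod.ext
    · apply Subtype.ext
      show h0⁻¹ * (h0 * (q.1.1 : L)) = _
      group
    · apply Subtype.ext
      apply Subtype.ext
      show (h0 * (q.1.1 : L))⁻¹ * d * (h0 * (q.1.1 : L)) * x⁻¹ = _
      rw [hd, ← hq]; group

end sums

end Cfsg.Agent.H26.RelG
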