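import Mathlib
import Cfsg.Agent.H26_RelG
import Cfsg.Agent.H3_Extraspecial

/-!
# H26_RelG2: the relative Glauberman correspondence, character theory of the cyclic case
-/

set_option autoImplicit false
set_option linter.unusedSectionVars false

namespace Cfsg.Agent.H26.RelG

open Cfsg Cfsg.Agent.H3.CharIrr Cfsg.Agent.H3.CharComplete Cfsg.Agent.H3.CharInd Cfsg.Agent.H3.CharInt
  Cfsg.Agent.H3.Clifford Cfsg.Agent.H3.CharMult Cfsg.Agent.H26.Galois Cfsg.Agent.H10.BlockLoc

open scoped ComplexConjugate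

section cs

variable {ι : Type*} [Fintype ι]

theorem cs_eq (v e : ι → ℂ) (N : ℂ) (hN : N ≠ 0) (hv : ∑ i, v i * conj (v i) = N)
    (he : ∑ i, e i * conj (e i) = N) (hNr : conj N = N) (a : ℂ) (ha : N * a = ∑ i, v i * conj (e i)) :
    ∑ i, (v i - a * e i) * conj (v i - a * e i) = N * (1 - a * conj a) := by
  have ha' : N * conj a = ∑ i, e i * conj (v i) := by
    have := congrArg (starRingEnd ℂ) ha
    rw [map_mul, hNr, map_sum] at this
    rw [this]
    refine Finset.sum_congr rfl fun i _ => ?_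
    rw [map_mul, Complex.conj_conj, mul_comm]
  have h1 : ∀ i, (v i - a * e i) * conj (v i - a * e i) =
      v i * conj (v i) - conj a * (v i * conj (e i)) - a * (e i * conj (v i)) + a * conj a * (e i * conj (e i)) := by
    intro i
    rw [map_sub, map_mul]; ring
  rw [Finset.sum_congr rfl fun i _ => h1 i, Finset.sum_add_distrib, Finset.sum_sub_distrib,
    Finset.sum_sub_distrib, ← Finset.mul_sum, ← Finset.mul_sum, ← Finset.mul_sum, hv, he, ← ha, ← ha']
  ring

theorem cs_le (v e : ι → ℂ) (n : ℕ) (hn : 0 < n) (hv : ∑ i, v i * conj (v i) = n)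
    (he : ∑ i, e i * conj (e i) = n) (a : ℂ) (ha : (n : ℂ) * a = ∑ i, v i * conj (e i)) :
    ‖a‖ ^ 2 ≤ 1 ∧ (‖a‖ ^ 2 = 1 → ∀ i, v i = a * e i) := by
  have hN : (n : ℂ) ≠ 0 := by exact_mod_cast hn.ne'
  have h1 := cs_eq v e n hN hv he (by simp) a ha
  have h2 : ∑ i, ‖v i - a * e i‖ ^ 2 = n * (1 - ‖a‖ ^ 2) := by
    have h3 : ((∑ i, ‖v i - a * e i‖ ^ 2 : ℝ) : ℂ) = ((n * (1 - ‖a‖ ^ 2) : ℝ) : ℂ) := by
      push_cast
      have e1 : ∀ z : ℂ, ((‖z‖ : ℂ)) ^ 2 = z * conj z := by
        intro z; rw [Complex.mul_conj, Complex.normSq_eq_norm_sq]; push_cast; rfl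
      rw [Finset.sum_congr rfl fun i _ => e1 _, h1, e1]
    exact_mod_cast h3
  have hn' : (0 : ℝ) < n := by exact_mod_cast hn
  constructor
  · have h3 : 0 ≤ ∑ i, ‖v i - a * e i‖ ^ 2 := Finset.sum_nonneg fun i _ => by positivity
    rw [h2] at h3
    nlinarith
  · intro ha1 i
    rw [ha1, sub_self, mul_zero] at h2
    have h3 := (Finset.sum_eq_zero_iff_of_nonneg (fun i _ => by positivity)).1 h2 i (Finset.mem_univ _)
    have h4 : v i - a * e i = 0 := by
      rw [← norm_eq_zero]
      exact pow_eq_zero_iff (two_ne_zero) |>.1 h3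
    exact sub_eq_zero.1 h4

end cs

section V

variable {L : Type*} [Group L] [Fintype L] (K : Subgroup L) [hK : K.Normal] (x : L)

theorem commutator_le_of_gen (hgen : ∀ g : L, ∃ i : ℤ, g * x ^ (-i) ∈ K) : commutator L ≤ K := by
  have h1 : ∀ g : L, ∃ i : ℤ, (g : L ⧸ K) = (x : L ⧸ K) ^ i := by
    intro g
    obtain ⟨i, hi⟩ := hgen g
    refine ⟨i, ?_⟩
    have h2 : ((g * x ^ (-i) : L) : L ⧸ K) = 1 := (QuotientGroup.eq_one_iff _).2 hi
    rw [QuotientGroup.mk_mul, QuotientGroup.mk_zpow, zpow_neg, mul_inv_eq_one] at h2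
    exact h2
  rw [commutator_def, Subgroup.commutator_le]
  intro a _ b _
  rw [← QuotientGroup.eq_one_iff]
  obtain ⟨i, hi⟩ := h1 a
  obtain ⟨j, hj⟩ := h1 b
  rw [commutatorElement_def]
  rw [QuotientGroup.mk_mul, QuotientGroup.mk_mul, QuotientGroup.mk_mul, QuotientGroup.mk_inv, QuotientGroup.mk_inv, hi, hj,
    ← zpow_add, ← zpow_neg, ← zpow_neg, ← zpow_add, ← zpow_add]
  have : i + j + -i + -j = 0 := by ring
  rw [this, zpow_zero]

/-- an irreducible character not vanishing on the coset of a generator restricts irreducibly -/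
theorem res_irr [Fintype K] (hgen : ∀ g : L, ∃ i : ℤ, g * x ^ (-i) ∈ K) {η : L → ℂ} (hη : IsIrrCharacter L η)
    (hne : ∃ k ∈ K, η (k * x) ≠ 0) : IsIrrCharacter K (fun k : K => η k) := by
  classical
  have hc := IsIrr.isCharacter hη
  have hprod : IsCharacter L (η * fun g => conj (η g)) := IsChar.mul hc (IsChar.conj hc)
  have hB := avg_isChar (N := K) hK hprod
  have hcomm := commutator_le_of_gen K x hgen
  have h1 : avg K (η * fun g => conj (η g)) = fun _ => 1 := by
    apply ext_inner (IsChar.isClass hB) (IsIrr.isClass isIrr_one)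
    intro lam hlam
    rw [ci_avg_left]
    rcases avg_irr hK hlam with h | h
    · rw [h.avg_eq]
      -- lam is linear
      have hl1 : lam 1 = 1 := Cfsg.Agent.H3.Extraspecial.one_of_commutator hlam fun z hz => by
        have := h z (hcomm hz) 1
        rwa [mul_one] at this
      by_cases hz : classInner (η * fun g => conj (η g)) lam = 0
      · rw [hz, eq_comm]
        apply ci_irr_ne isIrr_one hlam
        rintro rfl
        have : classInner (η * fun g => conj (η g)) (fun _ => 1) = classInner η η := by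
          rw [classInner, classInner]; simp
        rw [this, ci_irr_self hη] at hz
        exact one_ne_zero hz
      · have h2 : classInner η (lam * η) ≠ 0 := by
          intro h0
          apply hz
          rw [← h0, classInner, classInner]
          congr 1
          refine Finset.sum_congr rfl fun g _ => ?_
          simp only [Pi.mul_apply, map_mul]; ring
        have h3 : η = lam * η := by
          by_contra hne'
          exact h2 (ci_irr_ne hη (IsIrr.mul_linear hη (IsIrr.isCharacter hlam) hl1) hne')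
        obtain ⟨f, hf⟩ := IsChar.hom_of_one (IsIrr.isCharacter hlam) hl1
        obtain ⟨k, hk, hkx⟩ := hne
        have h4 : lam x = 1 := by
          have h5 := congrFun h3 (k * x)
          rw [Pi.mul_apply, h k hk x] at h5
          have := mul_right_cancel₀ hkx ((one_mul _).trans h5)
          exact this.symm
        have h5 : lam = fun _ => 1 := by
          ext g
          obtain ⟨i, hi⟩ := hgen g
          have h6 : g = (g * x ^ (-i)) * x ^ i := by group
          rw [h6, h _ hi (x ^ i)]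
          rw [hf] at h4 ⊢
          have h7 : f (x ^ i) * f (x ^ (-i)) = 1 := by rw [← map_mul]; simp
          rcases i with n | n
          · rw [Int.ofNat_eq_natCast, zpow_natCast, map_pow, h4, one_pow]
          · have h8 : f (x ^ (-(Int.negSucc n))) = 1 := by
              rw [Int.neg_negSucc]
              rw [zpow_natCast, map_pow, h4, one_pow]
            rw [h8, mul_one] at h7
            exact h7
        rw [h5]
        have : classInner (η * fun g => conj (η g)) (fun _ => 1) = classInner η η := by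
          rw [classInner, classInner]; simp
        rw [this, ci_irr_self hη, ci_irr_self isIrr_one]
    · rw [h, ci_zero_right, eq_comm]
      apply ci_irr_ne isIrr_one hlam
      rintro rfl
      have := congrFun h 1
      rw [avg] at this
      simp at this
  have h2 := congrFun h1 1
  apply IsChar.isIrr_of_norm (IsChar.res hc K)
  rw [← h2, avg, classInner]
  simp

end V

section main

variable {L : Type*} [Group L] [Fintype L] {p : ℕ} [hp : Fact p.Prime] {K Q D : Subgroup L} [hK : K.Normal]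
  [hQ : Q.Normal] {x : L} [Fintype K] [Fintype D] [Fintype (K.subgroupOf D)]

variable (K D) in
/-- coset inner products -/
noncomputable def AA (η : L → ℂ) (ζ : D → ℂ) : D → ℂ :=
  avg (K.subgroupOf D) ((fun d : D => η d) * fun d => conj (ζ d))

theorem AA_apply (η : L → ℂ) (ζ : D → ℂ) (y : D) : (Nat.card (K.subgroupOf D) : ℂ) * AA K D η ζ y =
    ∑ c : K.subgroupOf D, η (((c : D) : L) * y) * conj (ζ ((c : D) * y)) := by
  have : (Nat.card (K.subgroupOf D) : ℂ) ≠ 0 := by exact_mod_cast Nat.card_pos.ne'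
  rw [AA, avg, mul_inv_cancel_left₀ this]
  rfl

theorem AA_isChar {η : L → ℂ} {ζ : D → ℂ} (hη : IsCharacter L η) (hζ : IsCharacter D ζ) :
    IsCharacter D (AA K D η ζ) :=
  avg_isChar inferInstance (IsChar.mul (IsChar.res hη D) (IsChar.conj hζ))

theorem AA_one (η : L → ℂ) (ζ : D → ℂ) : AA K D η ζ 1 =
    classInner (fun c : K.subgroupOf D => η ((c : D) : L)) (fun c : K.subgroupOf D => ζ c) := by
  rw [AA, avg, classInner]
  simp

theorem norm_res (h : Dat p K Q D x) {η : L → ℂ} (hη : IsIrrCharacter L η)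
    (hηK : IsIrrCharacter K (fun k : K => η k)) :
    ∑ c : K.subgroupOf D, η (((c : D) : L) * x) * conj (η (((c : D) : L) * x)) =
      (Nat.card (K.subgroupOf D) : ℂ) := by
  have h1 := h.transport (fun g => η g * conj (η g)) (fun k hk g => by
    show η (k * g * k⁻¹) * conj (η (k * g * k⁻¹)) = _
    rw [(IsIrr.isClass hη) g k])
  have h2 := congrFun (avg_norm_sq (N := K) hK hη hηK) x
  rw [avg] at h2
  have hK0 : (Nat.card K : ℂ) ≠ 0 := by exact_mod_cast Nat.card_pos.ne'
  have h3 : ∑ k : K, (fun g => η g * conj (η g)) (k * x) = Nat.card K := by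
    have := congrArg (fun z => (Nat.card K : ℂ) * z) h2
    simp only [mul_inv_cancel_left₀ hK0, mul_one] at this
    exact this
  rw [h3] at h1
  have := mul_left_cancel₀ hK0 ((mul_comm _ _).trans h1)
  exact this.symm

theorem norm_res' {ζ : D → ℂ} (hζ : IsIrrCharacter D ζ)
    (hζC : IsIrrCharacter (K.subgroupOf D) (fun c : K.subgroupOf D => ζ c)) (y : D) :
    ∑ c : K.subgroupOf D, ζ ((c : D) * y) * conj (ζ ((c : D) * y)) = (Nat.card (K.subgroupOf D) : ℂ) := by
  have h2 := congrFun (avg_norm_sq (N := K.subgroupOf D) inferInstance hζ hζC) y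
  rw [avg] at h2
  have hK0 : (Nat.card (K.subgroupOf D) : ℂ) ≠ 0 := by exact_mod_cast Nat.card_pos.ne'
  have := congrArg (fun z => (Nat.card (K.subgroupOf D) : ℂ) * z) h2
  simp only [mul_inv_cancel_left₀ hK0, mul_one] at this
  exact this

/-- the key lemma: nonzero coset inner products have absolute value one -/
theorem key (h : Dat p K Q D x) {η : L → ℂ} (hη : IsIrrCharacter L η)
    (hηK : IsIrrCharacter K (fun k : K => η k)) {ζ : D → ℂ} (hζ : IsIrrCharacter D ζ)
    (hζC : IsIrrCharacter (K.subgroupOf D) (fun c : K.subgroupOf D => ζ c))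
    (hne : AA K D η ζ ⟨x, h.mem⟩ ≠ 0) :
    ‖AA K D η ζ ⟨x, h.mem⟩‖ ^ 2 = 1 ∧ ∀ c : K.subgroupOf D, η (((c : D) : L) * x) =
      AA K D η ζ ⟨x, h.mem⟩ * ζ ((c : D) * ⟨x, h.mem⟩) := by
  classical
  set x' : D := ⟨x, h.mem⟩ with hx'
  set S : Finset D := Finset.univ.filter (fun d => ∃ s : ℕ, s.Coprime (Nat.card D) ∧ d = x' ^ s) with hS
  have hchar := AA_isChar (K := K) (IsIrr.isCharacter hη) (IsIrr.isCharacter hζ)
  have hcs : ∀ d ∈ S, ‖AA K D η ζ d‖ ^ 2 ≤ 1 ∧ (‖AA K D η ζ d‖ ^ 2 = 1 → ∀ c : K.subgroupOf D,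
      η (((c : D) : L) * d) = AA K D η ζ d * ζ ((c : D) * d)) := by
    intro d hd
    obtain ⟨s, hs, rfl⟩ := (Finset.mem_filter.1 hd).2
    have hs' : s.Coprime (orderOf x) := by
      have : orderOf x' = orderOf x := by rw [← Subgroup.orderOf_coe]
      rw [← this]
      exact hs.coprime_dvd_right (orderOf_dvd_natCard x')
    have h' := h.pow hs'
    have e1 := norm_res h' hη hηK
    have e2 := norm_res' hζ hζC (x' ^ s)
    apply cs_le (fun c : K.subgroupOf D => η (((c : D) : L) * ((x' ^ s : D) : L)))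
      (fun c : K.subgroupOf D => ζ ((c : D) * x' ^ s)) (Nat.card (K.subgroupOf D)) Nat.card_pos e1 e2
    exact AA_apply η ζ (x' ^ s)
  have hge := sum_norm_ge hchar S (by
    intro d hd m hm
    obtain ⟨s, hs, rfl⟩ := (Finset.mem_filter.1 hd).2
    refine Finset.mem_filter.2 ⟨Finset.mem_univ _, s * m, Nat.Coprime.mul_left hs hm, ?_⟩
    rw [pow_mul]) (by
    intro d hd
    obtain ⟨s, hs, rfl⟩ := (Finset.mem_filter.1 hd).2
    exact pow_ne_zero' hchar hne hs)
  have hxS : x' ∈ S := Finset.mem_filter.2 ⟨Finset.mem_univ _, 1, Nat.coprime_one_left _, by rw [pow_one]⟩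
  have h1 : ‖AA K D η ζ x'‖ ^ 2 = 1 := by
    by_contra hlt
    have hlt' : ‖AA K D η ζ x'‖ ^ 2 < 1 := lt_of_le_of_ne (hcs x' hxS).1 hlt
    have : ∑ d ∈ S, ‖AA K D η ζ d‖ ^ 2 < ∑ d ∈ S, (1 : ℝ) :=
      Finset.sum_lt_sum (fun d hd => (hcs d hd).1) ⟨x', hxS, hlt'⟩
    rw [Finset.sum_const, nsmul_eq_mul, mul_one] at this
    linarith
  exact ⟨h1, (hcs x' hxS).2 h1⟩

theorem coset_orth {η η' : L → ℂ} (hη : IsIrrCharacter L η) (hη' : IsIrrCharacter L η')
    (hηK : IsIrrCharacter K (fun k : K => η k)) (hηK' : IsIrrCharacter K (fun k : K => η' k))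
    (hne : (fun k : K => η k) ≠ fun k : K => η' k) (y : L) : ∑ k : K, η (k * y) * conj (η' (k * y)) = 0 := by
  have hchar : IsCharacter L (avg K (η * fun g => conj (η' g))) :=
    avg_isChar hK (IsChar.mul (IsIrr.isCharacter hη) (IsChar.conj (IsIrr.isCharacter hη')))
  have h1 : avg K (η * fun g => conj (η' g)) 1 = 0 := by
    have := ci_irr_ne hηK hηK' hne
    rw [classInner] at this
    simp only [avg, Pi.mul_apply, mul_one]
    exact this
  have h2 := congrFun (IsChar.eq_zero_of_one hchar h1) y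
  rw [avg] at h2
  have hK0 : (Nat.card K : ℂ)⁻¹ ≠ 0 := inv_ne_zero (by exact_mod_cast Nat.card_pos.ne')
  exact (mul_eq_zero.1 h2).resolve_left hK0

theorem hgenD (h : Dat p K Q D x) (d : D) : ∃ i : ℤ, d * (⟨x, h.mem⟩ : D) ^ (-i) ∈ K.subgroupOf D := by
  obtain ⟨i, hi⟩ := h.hgen d
  exact ⟨i, Subgroup.mem_subgroupOf.2 hi⟩

/-- existence downwards -/
theorem exists_down (h : Dat p K Q D x) {η : L → ℂ} (hη : IsIrrCharacter L η)
    (hηK : IsIrrCharacter K (fun k : K => η k)) : ∃ ζ : D → ℂ, IsIrrCharacter D ζ ∧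
      IsIrrCharacter (K.subgroupOf D) (fun c : K.subgroupOf D => ζ c) ∧ AA K D η ζ ⟨x, h.mem⟩ ≠ 0 := by
  classical
  haveI : Fintype (IrrCharacter D) := Fintype.ofFinite _
  set x' : D := ⟨x, h.mem⟩ with hx'
  have h1 := norm_res h hη hηK
  obtain ⟨n, -, hn⟩ := IsChar.eq_sum_nat (IsChar.res (IsIrr.isCharacter hη) D)
  have h2 : ∃ ζ : IrrCharacter D, ∑ c : K.subgroupOf D, η (((c : D) : L) * x) * conj ((ζ : D → ℂ) ((c : D) * x')) ≠ 0 := by
    by_contra hcon
    push Not at hcon
    have h3 : ∀ c : K.subgroupOf D, conj (η (((c : D) : L) * x)) =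
        ∑ ζ : IrrCharacter D, (n ζ : ℂ) * conj ((ζ : D → ℂ) ((c : D) * x')) := by
      intro c
      have := congrFun hn ((c : D) * x')
      have e : η (((c : D) : L) * x) = ∑ ζ : IrrCharacter D, (n ζ : ℂ) * (ζ : D → ℂ) ((c : D) * x') := by
        rw [Finset.sum_apply] at this
        exact this
      rw [e, map_sum]
      refine Finset.sum_congr rfl fun ζ _ => ?_
      rw [map_mul, Complex.conj_natCast]
    have h4 : ∑ c : K.subgroupOf D, η (((c : D) : L) * x) * conj (η (((c : D) : L) * x)) = 0 := by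
      rw [Finset.sum_congr rfl fun c _ => by rw [h3 c, Finset.mul_sum], Finset.sum_comm]
      apply Finset.sum_eq_zero
      intro ζ _
      have := hcon ζ
      rw [← mul_zero (n ζ : ℂ), ← this, Finset.mul_sum]
      refine Finset.sum_congr rfl fun c _ => ?_
      ring
    rw [h1] at h4
    exact (by exact_mod_cast Nat.card_pos.ne' : (Nat.card (K.subgroupOf D) : ℂ) ≠ 0) h4
  obtain ⟨ζ, hζ⟩ := h2
  refine ⟨ζ, ζ.2, ?_, ?_⟩
  · apply res_irr (K.subgroupOf D) x' (hgenD h) ζ.2
    by_contra hcon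
    push Not at hcon
    apply hζ
    apply Finset.sum_eq_zero
    intro c _
    rw [hcon c c.2, map_zero, mul_zero]
  · intro h0
    apply hζ
    have := AA_apply (K := K) η (ζ : D → ℂ) x'
    rw [h0, mul_zero] at this
    exact this.symm

theorem ind_coset (h : Dat p K Q D x) {ζ : D → ℂ} (hζ : IsClassFunction D ζ) (c : K.subgroupOf D) :
    indFun D ζ (((c : D) : L) * x) = ζ ((c : D) * ⟨x, h.mem⟩) := by
  classical
  have hcK : ((c : D) : L) ∈ K := Subgroup.mem_subgroupOf.1 c.2
  have h1 : ∀ t : L, extendByZero D ζ (t⁻¹ * (((c : D) : L) * x) * t) =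
      if t ∈ D then ζ ((c : D) * ⟨x, h.mem⟩) else 0 := by
    intro t
    by_cases ht : t ∈ D
    · rw [if_pos ht]
      have := ext_class D hζ (D.inv_mem ht) (((c : D) : L) * x)
      rw [inv_inv] at this
      rw [this]
      exact ext_coe D ζ ((c : D) * ⟨x, h.mem⟩)
    · rw [if_neg ht]
      apply ext_not_mem
      intro hmem
      apply ht
      -- write t = x^i k
      obtain ⟨i, hi⟩ := h.hgen t⁻¹
      -- t⁻¹ = k x^i
      set k := t⁻¹ * x ^ (-i) with hk
      have hti : t⁻¹ = k * x ^ i := by rw [hk]; group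
      have hxi : x ^ i ∈ D := D.zpow_mem h.mem i
      set u := x ^ i * (((c : D) : L) * x) * (x ^ i)⁻¹ with hu
      have huD : u ∈ D := D.mul_mem (D.mul_mem hxi (D.mul_mem (c : D).2 h.mem)) (D.inv_mem hxi)
      have huK : u * x⁻¹ ∈ K := by
        have : u * x⁻¹ = x ^ i * ((c : D) : L) * (x ^ i)⁻¹ := by rw [hu]; group
        rw [this]; exact hK.conj_mem _ hcK _
      have hkD : k ∈ D := by
        apply fus_uniq K Q D x h.hQK h.hcop h.hx h.hD huD huK hi
        have : k * u * k⁻¹ = t⁻¹ * (((c : D) : L) * x) * t := by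
          have ht2 : t = (k * x ^ i)⁻¹ := by rw [← hti, inv_inv]
          rw [hu, hti]
          conv_rhs => rw [ht2]
          group
        rw [this]; exact hmem
      have : t = (k * x ^ i)⁻¹ := by rw [← hti, inv_inv]
      rw [this]
      exact D.inv_mem (D.mul_mem hkD hxi)
  have hD0 : (Nat.card D : ℂ) ≠ 0 := by exact_mod_cast Nat.card_pos.ne'
  rw [indFun, Finset.sum_congr rfl fun t _ => h1 t, ← Finset.sum_filter, Finset.sum_const, nsmul_eq_mul]
  have h2 : (Finset.univ.filter (fun t : L => t ∈ D)).card = Nat.card D := by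
    rw [← Fintype.card_subtype, Nat.card_eq_fintype_card]
  rw [h2, inv_mul_cancel_left₀ hD0]

/-- existence upwards -/
theorem exists_up (h : Dat p K Q D x) {ζ : D → ℂ} (hζ : IsIrrCharacter D ζ)
    (hζC : IsIrrCharacter (K.subgroupOf D) (fun c : K.subgroupOf D => ζ c)) : ∃ η : L → ℂ, IsIrrCharacter L η ∧
      IsIrrCharacter K (fun k : K => η k) ∧ AA K D η ζ ⟨x, h.mem⟩ ≠ 0 := by
  classical
  haveI : Fintype (IrrCharacter L) := Fintype.ofFinite _
  set x' : D := ⟨x, h.mem⟩ with hx'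
  set Ψ := indFun D ζ with hΨ
  have hΨc : IsCharacter L Ψ := IsChar.ind (IsIrr.isCharacter hζ)
  have hco : ∀ c : K.subgroupOf D, Ψ (((c : D) : L) * x) = ζ ((c : D) * x') :=
    fun c => ind_coset h (IsIrr.isClass hζ) c
  have hA0 : (Nat.card (K.subgroupOf D) : ℂ) ≠ 0 := by exact_mod_cast Nat.card_pos.ne'
  have hK0 : (Nat.card K : ℂ) ≠ 0 := by exact_mod_cast Nat.card_pos.ne'
  have h1 : ∑ k : K, Ψ (k * x) * conj (Ψ (k * x)) = Nat.card K := by
    have e1 := h.transport (fun g => Ψ g * conj (Ψ g)) (fun k hk g => by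
      show Ψ (k * g * k⁻¹) * conj (Ψ (k * g * k⁻¹)) = _
      rw [(IsChar.isClass hΨc) g k])
    have e2 : ∑ c : K.subgroupOf D, Ψ (((c : D) : L) * x) * conj (Ψ (((c : D) : L) * x)) =
        Nat.card (K.subgroupOf D) := by
      rw [Finset.sum_congr rfl fun c _ => by rw [hco c]]
      exact norm_res' hζ hζC x'
    rw [e2, mul_comm (Nat.card K : ℂ)] at e1
    exact mul_left_cancel₀ hA0 e1
  obtain ⟨n, -, hn⟩ := IsChar.eq_sum_nat hΨc
  have h2 : ∃ η : IrrCharacter L, ∑ k : K, Ψ (k * x) * conj ((η : L → ℂ) (k * x)) ≠ 0 := by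
    by_contra hcon
    push Not at hcon
    have h3 : ∀ k : K, conj (Ψ (k * x)) = ∑ η : IrrCharacter L, (n η : ℂ) * conj ((η : L → ℂ) (k * x)) := by
      intro k
      have := congrFun hn (k * x)
      have e : Ψ (k * x) = ∑ η : IrrCharacter L, (n η : ℂ) * (η : L → ℂ) (k * x) := by
        rw [Finset.sum_apply] at this
        exact this
      rw [e, map_sum]
      refine Finset.sum_congr rfl fun ζ _ => ?_
      rw [map_mul, Complex.conj_natCast]
    have h4 : ∑ k : K, Ψ (k * x) * conj (Ψ (k * x)) = 0 := by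
      rw [Finset.sum_congr rfl fun c _ => by rw [h3 c, Finset.mul_sum], Finset.sum_comm]
      apply Finset.sum_eq_zero
      intro ζ _
      have := hcon ζ
      rw [← mul_zero (n ζ : ℂ), ← this, Finset.mul_sum]
      refine Finset.sum_congr rfl fun c _ => ?_
      ring
    rw [h1] at h4
    exact hK0 h4
  obtain ⟨η, hη⟩ := h2
  refine ⟨η, η.2, ?_, ?_⟩
  · apply res_irr K x h.hgen η.2
    by_contra hcon
    push Not at hcon
    apply hη
    apply Finset.sum_eq_zero
    intro k _
    rw [hcon k k.2, map_zero, mul_zero]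
  · intro h0
    apply hη
    have e1 := h.transport (fun g => Ψ g * conj ((η : L → ℂ) g)) (fun k hk g => by
      show Ψ (k * g * k⁻¹) * conj ((η : L → ℂ) (k * g * k⁻¹)) = _
      rw [(IsChar.isClass hΨc) g k, (IsIrr.isClass η.2) g k])
    have e2 : ∑ c : K.subgroupOf D, Ψ (((c : D) : L) * x) * conj ((η : L → ℂ) (((c : D) : L) * x)) = 0 := by
      have := AA_apply (K := K) (η : L → ℂ) ζ x'
      rw [h0, mul_zero] at this
      have h3 := congrArg (starRingEnd ℂ) this
      rw [map_zero, map_sum] at h3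
      rw [h3]
      refine Finset.sum_congr rfl fun c _ => ?_
      rw [hco c, map_mul, Complex.conj_conj, mul_comm]
    rw [e2, mul_zero] at e1
    exact (mul_eq_zero.1 e1).resolve_left hA0

theorem unique_up (h : Dat p K Q D x) {η η' : L → ℂ} (hη : IsIrrCharacter L η) (hη' : IsIrrCharacter L η')
    (hηK : IsIrrCharacter K (fun k : K => η k)) (hηK' : IsIrrCharacter K (fun k : K => η' k))
    {ζ : D → ℂ} (hζ : IsIrrCharacter D ζ)
    (hζC : IsIrrCharacter (K.subgroupOf D) (fun c : K.subgroupOf D => ζ c))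
    (hne : AA K D η ζ ⟨x, h.mem⟩ ≠ 0) (hne' : AA K D η' ζ ⟨x, h.mem⟩ ≠ 0) :
    (fun k : K => η k) = fun k : K => η' k := by
  by_contra hcon
  have h1 := (key h hη hηK hζ hζC hne).2
  have h2 := (key h hη' hηK' hζ hζC hne').2
  have hA0 : (Nat.card (K.subgroupOf D) : ℂ) ≠ 0 := by exact_mod_cast Nat.card_pos.ne'
  have hK0 : (Nat.card K : ℂ) ≠ 0 := by exact_mod_cast Nat.card_pos.ne'
  have e1 := h.transport (fun g => η g * conj (η' g)) (fun k hk g => by
    show η (k * g * k⁻¹) * conj (η' (k * g * k⁻¹)) = _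
    rw [(IsIrr.isClass hη) g k, (IsIrr.isClass hη') g k])
  have e2 : ∑ k : K, (fun g => η g * conj (η' g)) (k * x) = 0 := coset_orth hη hη' hηK hηK' hcon x
  rw [e2, mul_zero] at e1
  have e3 : ∑ c : K.subgroupOf D, (fun g => η g * conj (η' g)) (((c : D) : L) * x) =
      AA K D η ζ ⟨x, h.mem⟩ * conj (AA K D η' ζ ⟨x, h.mem⟩) * (Nat.card (K.subgroupOf D) : ℂ) := by
    rw [← norm_res' hζ hζC ⟨x, h.mem⟩, Finset.mul_sum]
    refine Finset.sum_congr rfl fun c _ => ?_
    show η _ * conj (η' _) = _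
    rw [h1 c, h2 c, map_mul]; ring
  rw [e3] at e1
  have := mul_ne_zero hK0 (mul_ne_zero (mul_ne_zero hne ((map_ne_zero (starRingEnd ℂ)).2 hne')) hA0)
  exact this e1.symm

theorem unique_down (h : Dat p K Q D x) {η : L → ℂ} (hη : IsIrrCharacter L η)
    (hηK : IsIrrCharacter K (fun k : K => η k))
    {ζ ζ' : D → ℂ} (hζ : IsIrrCharacter D ζ) (hζ' : IsIrrCharacter D ζ')
    (hζC : IsIrrCharacter (K.subgroupOf D) (fun c : K.subgroupOf D => ζ c))
    (hζC' : IsIrrCharacter (K.subgroupOf D) (fun c : K.subgroupOf D => ζ' c))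
    (hne : AA K D η ζ ⟨x, h.mem⟩ ≠ 0) (hne' : AA K D η ζ' ⟨x, h.mem⟩ ≠ 0) :
    (fun c : K.subgroupOf D => ζ c) = fun c : K.subgroupOf D => ζ' c := by
  classical
  by_contra hcon
  have h1 := (key h hη hηK hζ hζC hne).2
  have h2 := (key h hη hηK hζ' hζC' hne').2
  have hA0 : (Nat.card (K.subgroupOf D) : ℂ) ≠ 0 := by exact_mod_cast Nat.card_pos.ne'
  have e2 := coset_orth hζ hζ' hζC hζC' hcon ⟨x, h.mem⟩
  have e3 : AA K D η ζ ⟨x, h.mem⟩ * conj (AA K D η ζ' ⟨x, h.mem⟩) *
      ∑ c : K.subgroupOf D, ζ ((c : D) * ⟨x, h.mem⟩) * conj (ζ' ((c : D) * ⟨x, h.mem⟩)) =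
      (Nat.card (K.subgroupOf D) : ℂ) := by
    rw [← norm_res h hη hηK, Finset.mul_sum]
    refine Finset.sum_congr rfl fun c _ => ?_
    have : η (((c : D) : L) * x) * conj (η (((c : D) : L) * x)) =
        (AA K D η ζ ⟨x, h.mem⟩ * ζ ((c : D) * ⟨x, h.mem⟩)) *
        conj (AA K D η ζ' ⟨x, h.mem⟩ * ζ' ((c : D) * ⟨x, h.mem⟩)) := by rw [← h1 c, ← h2 c]
    rw [this, map_mul]
    ring
  rw [e2, mul_zero] at e3
  exact hA0 e3.symm

/-- congruences for the multiplicities -/
theorem mod_sq {M : Ideal AlgInt} (hM : IsPModular p M) (h : Dat p K Q D x) {η : L → ℂ} (hη : IsIrrCharacter L η)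
    (hηK : IsIrrCharacter K (fun k : K => η k)) {ζ : D → ℂ} (hζ : IsIrrCharacter D ζ)
    (hζC : IsIrrCharacter (K.subgroupOf D) (fun c : K.subgroupOf D => ζ c)) {m : ℕ}
    (hm : classInner (fun c : K.subgroupOf D => η ((c : D) : L)) (fun c : K.subgroupOf D => ζ c) = m) :
    (AA K D η ζ ⟨x, h.mem⟩ ≠ 0 ↔ ¬ p ∣ m) ∧ (¬ p ∣ m → (m : ℤ) ≡ 1 [ZMOD p] ∨ (m : ℤ) ≡ -1 [ZMOD p]) := by
  haveI := Cfsg.Agent.H10.BlockLoc.isMaximal_of hM
  have hchar := AA_isChar (K := K) (IsIrr.isCharacter hη) (IsIrr.isCharacter hζ)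
  set x' : D := ⟨x, h.mem⟩ with hx'
  set a := AA K D η ζ x' with ha
  have hxo : ∃ k : ℕ, orderOf x' = p ^ k := by
    obtain ⟨n, hn⟩ := h.hx
    exact ⟨n, by rw [← hn, ← Subgroup.orderOf_coe]⟩
  have h1o : ¬ p ∣ orderOf (1 : D) := by rw [orderOf_one]; exact hp.out.one_lt.ne' ∘ Nat.dvd_one.1
  have h1 : MemLocalIdeal M (a - m) := by
    have := Cfsg.Agent.H10.BlockHZ.char_sub_mem hM hchar (Commute.one_right x') hxo h1o
    rw [mul_one, AA_one, hm] at this
    exact this
  have h2 : MemLocalIdeal M (conj a - m) := by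
    have := Cfsg.Agent.H10.BlockHZ.char_sub_mem hM (IsChar.conj hchar) (Commute.one_right x') hxo h1o
    rw [mul_one, AA_one, hm, Complex.conj_natCast] at this
    exact this
  have hring : MemLocalRing M a := memLocalRing_of_integral this.ne_top (IsChar.isIntegral hchar _)
  have h3 : a ≠ 0 → MemLocalIdeal M ((1 : ℂ) - (m : ℂ) ^ 2) := by
    intro hne
    have hk := (key h hη hηK hζ hζC hne).1
    have e1 : a * conj a = 1 := by
      rw [Complex.mul_conj, Complex.normSq_eq_norm_sq, hk, Complex.ofReal_one]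
    have : (1 : ℂ) - (m : ℂ) ^ 2 = a * (conj a - m) + (m : ℂ) * (a - m) := by
      rw [← e1]; ring
    rw [this]
    exact ideal_add (ideal_mul_left hring h2) (ideal_mul_left (ring_natCast m) h1)
  have h4 : a = 0 → p ∣ m := by
    intro h0
    rw [h0, zero_sub] at h1
    have := ideal_neg h1
    rw [neg_neg] at this
    exact (ideal_natCast_iff hM m).1 this
  have h5 : p ∣ m → a = 0 := by
    intro hpm
    by_contra hne
    have h6 := h3 hne
    have h7 := (ideal_natCast_iff hM m).2 hpm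
    have h8 : MemLocalIdeal M (1 : ℂ) := by
      have : (1 : ℂ) = ((1 : ℂ) - (m : ℂ) ^ 2) + (m : ℂ) * (m : ℂ) := by ring
      rw [this]
      exact ideal_add h6 (ideal_mul_left (ring_natCast m) h7)
    exact one_notMem_ideal h8
  refine ⟨⟨fun hne hpm => hne (h5 hpm), fun hpm h0 => hpm (h4 h0)⟩, fun hpm => ?_⟩
  have hne : a ≠ 0 := fun h0 => hpm (h4 h0)
  have h6 : MemLocalIdeal M (((1 - (m : ℤ) ^ 2 : ℤ)) : ℂ) := by push_cast; exact h3 hne
  have h7 : (p : ℤ) ∣ 1 - (m : ℤ) ^ 2 := (ideal_intCast_iff hM _).1 h6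
  have h8 : (p : ℤ) ∣ (1 - m) * (1 + m) := by
    have : (1 - (m : ℤ)) * (1 + m) = 1 - (m : ℤ) ^ 2 := by ring
    rw [this]; exact h7
  rcases (Nat.prime_iff_prime_int.1 hp.out).dvd_or_dvd h8 with h9 | h9
  · left
    exact (Int.modEq_iff_dvd).2 h9
  · right
    rw [Int.modEq_iff_dvd]
    have : (-1 : ℤ) - m = -(1 + m) := by ring
    rw [this]
    exact (dvd_neg).2 h9

end main

end Cfsg.Agent.H26.RelG
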