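import Mathlib
import Cfsg.Agent.H26_RelG2

/-!
# H26_RelG3: the relative Glauberman correspondence in an ambient group
-/

set_option autoImplicit false
set_option linter.unusedSectionVars false

namespace Cfsg.Agent.H26.RelG

open Cfsg Cfsg.Agent.H3.CharIrr Cfsg.Agent.H3.CharComplete Cfsg.Agent.H3.CharInd Cfsg.Agent.H3.CharInt
  Cfsg.Agent.H3.Clifford Cfsg.Agent.H3.CharMult Cfsg.Agent.H10.BlockLoc
  Cfsg.Agent.H25.GlaubCore Cfsg.Agent.H25.Glaub Cfsg.Agent.H25.Glaub2 Cfsg.Agent.H25.Clifford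

open scoped ComplexConjugate

section amb

variable {Γ : Type*} [Group Γ] [Fintype Γ] {p : ℕ} [hp : Fact p.Prime]

/-- the cyclic situation in an ambient group -/
structure Amb (p : ℕ) (K Q C : Subgroup Γ) (x : Γ) : Prop where
  hQK : Q ≤ K
  hQn : ∀ k ∈ K, ∀ q ∈ Q, k * q * k⁻¹ ∈ Q
  hcop : ¬ p ∣ Q.relIndex K
  hx : ∃ n, orderOf x = p ^ n
  hQp : IsPGroup p Q
  hxK : ∀ k, k ∈ K ↔ x * k * x⁻¹ ∈ K
  hC : ∀ k : Γ, k ∈ C ↔ (k ∈ K ∧ x * k * x⁻¹ * k⁻¹ ∈ Q)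

variable {K Q C : Subgroup Γ} {x : Γ}

theorem Amb.zK (h : Amb p K Q C x) (i : ℤ) {k : Γ} (hk : k ∈ K) : x ^ i * k * (x ^ i)⁻¹ ∈ K := by
  have h1 : x ∈ Subgroup.normalizer (K : Set Γ) := by
    rw [Subgroup.mem_normalizer_iff]
    exact h.hxK
  have h2 := Subgroup.zpow_mem _ h1 i
  rw [Subgroup.mem_normalizer_iff] at h2
  exact (h2 k).1 hk

/-- `p`-elements of `K` lie in `Q` -/
theorem Amb.mem (h : Amb p K Q C x) {u : Γ} (hu : u ∈ K) {n : ℕ} (hun : u ^ p ^ n = 1) : u ∈ Q := by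
  haveI : (Q.subgroupOf K).Normal := ⟨fun a ha g => by
    rw [Subgroup.mem_subgroupOf] at ha ⊢
    exact h.hQn g g.2 a ha⟩
  have h1 := mem_of_pelt (L := K) (p := p) ⊤ (Q.subgroupOf K) le_top (by
    rw [Subgroup.relIndex_top_right]; exact h.hcop) (u := ⟨u, hu⟩) (Subgroup.mem_top _) (n := n)
    (by
      have : (⟨u, hu⟩ : K) ^ p ^ n = 1 := Subtype.ext hun
      rw [this]; exact Subgroup.one_mem _)
  exact h1

theorem Amb.zQ (h : Amb p K Q C x) (i : ℤ) {k : Γ} (hk : k ∈ Q) : x ^ i * k * (x ^ i)⁻¹ ∈ Q := by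
  obtain ⟨n, hn⟩ := h.hQp ⟨k, hk⟩
  have hn' : k ^ p ^ n = 1 := congrArg Subtype.val hn
  apply h.mem (h.zK i (h.hQK hk)) (n := n)
  rw [conj_pow, hn', mul_one, mul_inv_cancel]

/-- the group generated by `K` and `x` -/
def Lx (h : Amb p K Q C x) : Subgroup Γ where
  carrier := {g | ∃ i : ℤ, g * x ^ (-i) ∈ K}
  one_mem' := ⟨0, by simp⟩
  mul_mem' := by
    rintro a b ⟨i, hi⟩ ⟨j, hj⟩
    refine ⟨i + j, ?_⟩
    have : a * b * x ^ (-(i + j)) = (a * x ^ (-i)) * (x ^ i * (b * x ^ (-j)) * (x ^ i)⁻¹) := by group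
    rw [this]
    exact K.mul_mem hi (h.zK i hj)
  inv_mem' := by
    rintro a ⟨i, hi⟩
    refine ⟨-i, ?_⟩
    have h3 : x ^ (-i) * (a * x ^ (-i))⁻¹ * (x ^ (-i))⁻¹ = a⁻¹ * x ^ (-(-i)) := by group
    rw [← h3]
    exact h.zK (-i) (K.inv_mem hi)

theorem Amb.KL (h : Amb p K Q C x) : K ≤ Lx h := fun k hk => ⟨0, by simpa using hk⟩

theorem Amb.xL (h : Amb p K Q C x) : x ∈ Lx h := ⟨1, by simp⟩

theorem Amb.QL (h : Amb p K Q C x) : Q ≤ Lx h := h.hQK.trans h.KL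

theorem Amb.KN (h : Amb p K Q C x) : (K.subgroupOf (Lx h)).Normal := ⟨fun a ha g => by
  rw [Subgroup.mem_subgroupOf] at ha ⊢
  obtain ⟨i, hi⟩ := g.2
  have : ((g * a * g⁻¹ : Lx h) : Γ) = ((g : Γ) * x ^ (-i)) * (x ^ i * (a : Γ) * (x ^ i)⁻¹) * ((g : Γ) * x ^ (-i))⁻¹ := by
    push_cast; group
  rw [this]
  exact K.mul_mem (K.mul_mem hi (h.zK i ha)) (K.inv_mem hi)⟩

theorem Amb.QN (h : Amb p K Q C x) : (Q.subgroupOf (Lx h)).Normal := ⟨fun a ha g => by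
  rw [Subgroup.mem_subgroupOf] at ha ⊢
  obtain ⟨i, hi⟩ := g.2
  have : ((g * a * g⁻¹ : Lx h) : Γ) = ((g : Γ) * x ^ (-i)) * (x ^ i * (a : Γ) * (x ^ i)⁻¹) * ((g : Γ) * x ^ (-i))⁻¹ := by
    push_cast; group
  rw [this]
  exact h.hQn _ hi _ (h.zQ i ha)⟩

/-- centralizer of `x` modulo `Q` -/
def Dx (h : Amb p K Q C x) : Subgroup (Lx h) :=
  haveI := h.QN
  (Subgroup.centralizer {((⟨x, h.xL⟩ : Lx h) : (Lx h) ⧸ Q.subgroupOf (Lx h))}).comap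
    (QuotientGroup.mk' (Q.subgroupOf (Lx h)))

theorem Amb.dat (h : Amb p K Q C x) :
    haveI := h.QN
    Dat p (K.subgroupOf (Lx h)) (Q.subgroupOf (Lx h)) (Dx h) ⟨x, h.xL⟩ := by
  haveI := h.QN
  refine ⟨?_, ?_, ?_, ?_, ?_, ?_⟩
  · intro a ha
    exact h.hQK ha
  · rw [Subgroup.relIndex_subgroupOf h.KL]
    exact h.hcop
  · obtain ⟨n, hn⟩ := h.hx
    exact ⟨n, by rw [← hn, ← Subgroup.orderOf_coe]⟩
  · intro q
    obtain ⟨n, hn⟩ := h.hQp ⟨((q : Lx h) : Γ), q.2⟩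
    refine ⟨n, ?_⟩
    have h1 : (((q : Lx h) : Γ)) ^ p ^ n = 1 := congrArg Subtype.val hn
    apply Subtype.ext
    apply Subtype.ext
    rw [Subgroup.coe_pow, Subgroup.coe_pow, h1]
    rfl
  · intro g
    obtain ⟨i, hi⟩ := g.2
    exact ⟨i, hi⟩
  · intro g
    rw [Dx, Subgroup.mem_comap, Subgroup.mem_centralizer_iff]
    constructor
    · intro h1
      exact h1 _ (Set.mem_singleton _)
    · intro h1 y hy
      rw [Set.mem_singleton_iff.1 hy]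
      exact h1

theorem Amb.mem_C (h : Amb p K Q C x) {c : Γ} (hc : c ∈ K) : c ∈ C ↔ (⟨c, h.KL hc⟩ : Lx h) ∈ Dx h := by
  haveI := h.QN
  rw [h.dat.hD, h.hC]
  have : (x * c * x⁻¹ * c⁻¹ ∈ Q) ↔ Commute ((⟨x, h.xL⟩ : Lx h) : (Lx h) ⧸ Q.subgroupOf (Lx h))
      ((⟨c, h.KL hc⟩ : Lx h) : (Lx h) ⧸ Q.subgroupOf (Lx h)) := by
    have e1 : Commute ((⟨x, h.xL⟩ : Lx h) : (Lx h) ⧸ Q.subgroupOf (Lx h))
        ((⟨c, h.KL hc⟩ : Lx h) : (Lx h) ⧸ Q.subgroupOf (Lx h)) ↔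
        (((⟨x, h.xL⟩ * ⟨c, h.KL hc⟩ * ⟨x, h.xL⟩⁻¹ * ⟨c, h.KL hc⟩⁻¹ : Lx h)) :
          (Lx h) ⧸ Q.subgroupOf (Lx h)) = 1 := by
      rw [QuotientGroup.mk_mul, QuotientGroup.mk_mul, QuotientGroup.mk_mul, QuotientGroup.mk_inv,
        QuotientGroup.mk_inv, mul_inv_eq_one, mul_inv_eq_iff_eq_mul]
      rfl
    rw [e1, QuotientGroup.eq_one_iff, Subgroup.mem_subgroupOf]
    rfl
  rw [← this]
  exact ⟨fun h => h.2, fun h => ⟨hc, h⟩⟩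

/-- `C` as a subgroup of `Dx` -/
def eC (h : Amb p K Q C x) : C ≃* (K.subgroupOf (Lx h)).subgroupOf (Dx h) where
  toFun c := ⟨⟨⟨c, h.KL ((h.hC c).1 c.2).1⟩, (h.mem_C ((h.hC c).1 c.2).1).1 c.2⟩, ((h.hC c).1 c.2).1⟩
  invFun d := ⟨(((d : Dx h) : Lx h) : Γ), (h.mem_C (c := (((d : Dx h) : Lx h) : Γ)) d.2).2 (d : Dx h).2⟩
  left_inv c := rfl
  right_inv d := rfl
  map_mul' c d := rfl

/-- `K` as a subgroup of `Lx` -/
def eK (h : Amb p K Q C x) : K ≃* K.subgroupOf (Lx h) where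
  toFun k := ⟨⟨k, h.KL k.2⟩, k.2⟩
  invFun d := ⟨((d : Lx h) : Γ), d.2⟩
  left_inv c := rfl
  right_inv d := rfl
  map_mul' c d := rfl

end amb

section ext

variable {L : Type*} [Group L] [Fintype L] (N : Subgroup L) [hN : N.Normal] (x : L)

theorem exists_ext (hgen : ∀ g : L, ∃ i : ℤ, g * x ^ (-i) ∈ N) {θ : N → ℂ} (hθ : IsIrrCharacter N θ)
    (hx : ∀ n n' : N, (n' : L) = x * n * x⁻¹ → θ n' = θ n) :
    ∃ χ : L → ℂ, IsIrrCharacter L χ ∧ ∀ n : N, χ n = θ n := by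
  have h1 : ∀ g : L, g ∈ inertia hN θ := by
    intro g
    obtain ⟨i, hi⟩ := hgen g
    have h2 : x ∈ inertia hN θ := by
      rw [mem_inertia]
      ext n
      rw [cj_apply]
      exact hx n _ rfl
    have h3 : g = (g * x ^ (-i)) * x ^ i := by group
    rw [h3]
    exact Subgroup.mul_mem _ (le_inertia hN (IsIrr.isClass hθ) hi) (Subgroup.zpow_mem _ h2 i)
  refine Cfsg.Agent.H3.CycExt.exists_extension N ?_ θ hθ ?_
  · refine ⟨(x : L ⧸ N), fun y => ?_⟩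
    obtain ⟨g, rfl⟩ := QuotientGroup.mk_surjective y
    obtain ⟨i, hi⟩ := hgen g
    refine ⟨i, ?_⟩
    have h2 : ((g * x ^ (-i) : L) : L ⧸ N) = 1 := (QuotientGroup.eq_one_iff _).2 hi
    rw [QuotientGroup.mk_mul, QuotientGroup.mk_zpow, zpow_neg, mul_inv_eq_one] at h2
    exact h2.symm
  · intro g n
    have := congrFun ((mem_inertia hN θ g).1 (h1 g)) n
    rw [cj_apply] at this
    exact this

end ext

section amb2

variable {Γ : Type*} [Group Γ] [Fintype Γ] {p : ℕ} [hp : Fact p.Prime]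
variable {K Q C : Subgroup Γ} {x : Γ}

/-- invariance under `x` -/
def XI {H : Subgroup Γ} (x : Γ) (χ : H → ℂ) : Prop := ∀ g g' : H, (g' : Γ) = x * g * x⁻¹ → χ g' = χ g

/-- extension upstairs -/
theorem Amb.extK (h : Amb p K Q C x) (χ : IrrCharacter K) (hχ : XI x (χ : K → ℂ)) :
    ∃ η : Lx h → ℂ, IsIrrCharacter (Lx h) η ∧ ∀ k : K, η ((eK h k : K.subgroupOf (Lx h)) : Lx h) = (χ : K → ℂ) k := by
  classical
  haveI := h.QN
  haveI := h.KN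
  have h1 : IsIrrCharacter (K.subgroupOf (Lx h)) (fun k => (χ : K → ℂ) ((eK h).symm k)) :=
    (isIrr_comp_iff (eK h).symm).2 χ.2
  obtain ⟨η, hη, hη2⟩ := exists_ext (K.subgroupOf (Lx h)) ⟨x, h.xL⟩ h.dat.hgen h1 (by
    intro n n' hnn
    apply hχ
    exact congrArg Subtype.val hnn)
  refine ⟨η, hη, fun k => ?_⟩
  rw [hη2, MulEquiv.symm_apply_apply]

theorem Amb.extC (h : Amb p K Q C x) (ξ : IrrCharacter C) (hξ : XI x (ξ : C → ℂ)) :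
    ∃ ζ : Dx h → ℂ, IsIrrCharacter (Dx h) ζ ∧
      ∀ c : C, ζ ((eC h c : (K.subgroupOf (Lx h)).subgroupOf (Dx h)) : Dx h) = (ξ : C → ℂ) c := by
  classical
  haveI := h.QN
  haveI := h.KN
  have h1 : IsIrrCharacter ((K.subgroupOf (Lx h)).subgroupOf (Dx h)) (fun k => (ξ : C → ℂ) ((eC h).symm k)) :=
    (isIrr_comp_iff (eC h).symm).2 ξ.2
  obtain ⟨η, hη, hη2⟩ := exists_ext ((K.subgroupOf (Lx h)).subgroupOf (Dx h)) ⟨⟨x, h.xL⟩, h.dat.mem⟩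
    (hgenD h.dat) h1 (by
    intro n n' hnn
    apply hξ
    exact congrArg (fun z : Dx h => ((z : Lx h) : Γ)) hnn)
  refine ⟨η, hη, fun k => ?_⟩
  rw [hη2, MulEquiv.symm_apply_apply]

theorem Amb.hCK (h : Amb p K Q C x) : C ≤ K := fun c hc => ((h.hC c).1 hc).1

theorem Amb.irrK (h : Amb p K Q C x) {χ : IrrCharacter K} {η : Lx h → ℂ}
    (hη : ∀ k : K, η ((eK h k : K.subgroupOf (Lx h)) : Lx h) = (χ : K → ℂ) k) :
    IsIrrCharacter (K.subgroupOf (Lx h)) (fun k => η k) := by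
  rw [← isIrr_comp_iff (eK h)]
  have : (fun k : K => η ((eK h k : K.subgroupOf (Lx h)) : Lx h)) = (χ : K → ℂ) := funext hη
  rw [this]; exact χ.2

theorem Amb.irrC (h : Amb p K Q C x) {ξ : IrrCharacter C} {ζ : Dx h → ℂ}
    (hζ : ∀ c : C, ζ ((eC h c : (K.subgroupOf (Lx h)).subgroupOf (Dx h)) : Dx h) = (ξ : C → ℂ) c) :
    IsIrrCharacter ((K.subgroupOf (Lx h)).subgroupOf (Dx h)) (fun k => ζ k) := by
  rw [← isIrr_comp_iff (eC h)]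
  have : (fun k : C => ζ ((eC h k : (K.subgroupOf (Lx h)).subgroupOf (Dx h)) : Dx h)) = (ξ : C → ℂ) := funext hζ
  rw [this]; exact ξ.2

theorem Amb.mlt_eq (h : Amb p K Q C x) [Fintype K] [Fintype C]
    [Fintype ((K.subgroupOf (Lx h)).subgroupOf (Dx h))]
    {χ : IrrCharacter K} {η : Lx h → ℂ}
    (hη : ∀ k : K, η ((eK h k : K.subgroupOf (Lx h)) : Lx h) = (χ : K → ℂ) k)
    {ξ : IrrCharacter C} {ζ : Dx h → ℂ}
    (hζ : ∀ c : C, ζ ((eC h c : (K.subgroupOf (Lx h)).subgroupOf (Dx h)) : Dx h) = (ξ : C → ℂ) c) :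
    classInner (fun c : (K.subgroupOf (Lx h)).subgroupOf (Dx h) => η ((c : Dx h) : Lx h))
      (fun c : (K.subgroupOf (Lx h)).subgroupOf (Dx h) => ζ c) = mlt (Subgroup.inclusion h.hCK) χ ξ := by
  rw [← mlt_spec, ci_bij (k := (eC h : C →* (K.subgroupOf (Lx h)).subgroupOf (Dx h))) (eC h).bijective]
  congr 1
  · ext c
    exact hη (Subgroup.inclusion h.hCK c)
  · ext c
    exact hζ c

variable [Fintype K] [Fintype C]

/-- the cyclic relative Glauberman correspondence -/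
theorem Amb.main (h : Amb p K Q C x) :
    (∀ χ : IrrCharacter K, XI x (χ : K → ℂ) → ∃ ξ : IrrCharacter C, XI x (ξ : C → ℂ) ∧
      ¬ p ∣ mlt (Subgroup.inclusion h.hCK) χ ξ) ∧
    (∀ ξ : IrrCharacter C, XI x (ξ : C → ℂ) → ∃ χ : IrrCharacter K, XI x (χ : K → ℂ) ∧
      ¬ p ∣ mlt (Subgroup.inclusion h.hCK) χ ξ) ∧
    (∀ χ : IrrCharacter K, XI x (χ : K → ℂ) → ∀ ξ ξ' : IrrCharacter C, XI x (ξ : C → ℂ) → XI x (ξ' : C → ℂ) →
      ¬ p ∣ mlt (Subgroup.inclusion h.hCK) χ ξ → ¬ p ∣ mlt (Subgroup.inclusion h.hCK) χ ξ' → ξ = ξ') ∧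
    (∀ ξ : IrrCharacter C, XI x (ξ : C → ℂ) → ∀ χ χ' : IrrCharacter K, XI x (χ : K → ℂ) → XI x (χ' : K → ℂ) →
      ¬ p ∣ mlt (Subgroup.inclusion h.hCK) χ ξ → ¬ p ∣ mlt (Subgroup.inclusion h.hCK) χ' ξ → χ = χ') ∧
    (∀ χ : IrrCharacter K, XI x (χ : K → ℂ) → ∀ ξ : IrrCharacter C, XI x (ξ : C → ℂ) →
      ¬ p ∣ mlt (Subgroup.inclusion h.hCK) χ ξ → (mlt (Subgroup.inclusion h.hCK) χ ξ : ℤ) ≡ 1 [ZMOD p] ∨
        (mlt (Subgroup.inclusion h.hCK) χ ξ : ℤ) ≡ -1 [ZMOD p]) := by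
  classical
  haveI := h.QN
  haveI := h.KN
  haveI : Fintype (K.subgroupOf (Lx h)) := Fintype.ofFinite _
  haveI : Fintype (Dx h) := Fintype.ofFinite _
  haveI : Fintype ((K.subgroupOf (Lx h)).subgroupOf (Dx h)) := Fintype.ofFinite _
  obtain ⟨M, hM⟩ := Cfsg.Agent.H25.Orbit.exists_modular hp.out
  have h0 := h.dat
  refine ⟨?_, ?_, ?_, ?_, ?_⟩
  · intro χ hχ
    obtain ⟨η, hη, hη2⟩ := h.extK χ hχ
    obtain ⟨ζ, hζ, hζC, hne⟩ := exists_down h0 hη (h.irrK hη2)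
    refine ⟨⟨fun c => ζ (eC h c : (K.subgroupOf (Lx h)).subgroupOf (Dx h)),
      (isIrr_comp_iff (χ := fun c : (K.subgroupOf (Lx h)).subgroupOf (Dx h) => ζ c) (eC h)).2 hζC⟩, ?_, ?_⟩
    · intro g g' hg
      have := (IsIrr.isClass hζ) (eC h g : (K.subgroupOf (Lx h)).subgroupOf (Dx h)) ⟨⟨x, h.xL⟩, h0.mem⟩
      show ζ _ = ζ _
      rw [← this]
      congr 1
      apply Subtype.ext
      apply Subtype.ext
      exact hg
    · rw [← (mod_sq hM h0 hη (h.irrK hη2) hζ hζC (h.mlt_eq hη2 (fun c => rfl))).1]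
      exact hne
  · intro ξ hξ
    obtain ⟨ζ, hζ, hζ2⟩ := h.extC ξ hξ
    obtain ⟨η, hη, hηK, hne⟩ := exists_up h0 hζ (h.irrC hζ2)
    refine ⟨⟨fun c => η (eK h c : K.subgroupOf (Lx h)),
      (isIrr_comp_iff (χ := fun c : (K.subgroupOf (Lx h)) => η c) (eK h)).2 hηK⟩, ?_, ?_⟩
    · intro g g' hg
      have := (IsIrr.isClass hη) (eK h g : (K.subgroupOf (Lx h))) ⟨x, h.xL⟩
      show η _ = η _
      rw [← this]
      congr 1
      apply Subtype.ext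
      exact hg
    · rw [← (mod_sq hM h0 hη hηK hζ (h.irrC hζ2) (h.mlt_eq (fun c => rfl) hζ2)).1]
      exact hne
  · intro χ hχ ξ ξ' hξ hξ' h1 h2
    obtain ⟨η, hη, hη2⟩ := h.extK χ hχ
    obtain ⟨ζ, hζ, hζ2⟩ := h.extC ξ hξ
    obtain ⟨ζ', hζ', hζ2'⟩ := h.extC ξ' hξ'
    rw [← (mod_sq hM h0 hη (h.irrK hη2) hζ (h.irrC hζ2) (h.mlt_eq hη2 hζ2)).1] at h1
    rw [← (mod_sq hM h0 hη (h.irrK hη2) hζ' (h.irrC hζ2') (h.mlt_eq hη2 hζ2')).1] at h2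
    have := unique_down h0 hη (h.irrK hη2) hζ hζ' (h.irrC hζ2) (h.irrC hζ2') h1 h2
    apply Subtype.ext
    ext c
    rw [← hζ2, ← hζ2']
    exact congrFun this (eC h c)
  · intro ξ hξ χ χ' hχ hχ' h1 h2
    obtain ⟨η, hη, hη2⟩ := h.extK χ hχ
    obtain ⟨η', hη', hη2'⟩ := h.extK χ' hχ'
    obtain ⟨ζ, hζ, hζ2⟩ := h.extC ξ hξ
    rw [← (mod_sq hM h0 hη (h.irrK hη2) hζ (h.irrC hζ2) (h.mlt_eq hη2 hζ2)).1] at h1
    rw [← (mod_sq hM h0 hη' (h.irrK hη2') hζ (h.irrC hζ2) (h.mlt_eq hη2' hζ2)).1] at h2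
    have := unique_up h0 hη hη' (h.irrK hη2) (h.irrK hη2') hζ (h.irrC hζ2) h1 h2
    apply Subtype.ext
    ext c
    rw [← hη2, ← hη2']
    exact congrFun this (eK h c)
  · intro χ hχ ξ hξ h1
    obtain ⟨η, hη, hη2⟩ := h.extK χ hχ
    obtain ⟨ζ, hζ, hζ2⟩ := h.extC ξ hξ
    exact (mod_sq hM h0 hη (h.irrK hη2) hζ (h.irrC hζ2) (h.mlt_eq hη2 hζ2)).2 h1

end amb2

end Cfsg.Agent.H26.RelG
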