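import Mathlib
import Cfsg.Agent.H26_RelG3

/-!
# H26_RelG4: the relative Glauberman correspondence for `p`-groups
-/

set_option autoImplicit false
set_option linter.unusedSectionVars false

namespace Cfsg.Agent.H26.RelG

open Cfsg Cfsg.Agent.H3.CharIrr Cfsg.Agent.H3.CharComplete Cfsg.Agent.H3.CharInd Cfsg.Agent.H3.CharInt
  Cfsg.Agent.H10.BlockLoc
  Cfsg.Agent.H25.GlaubCore Cfsg.Agent.H25.Glaub Cfsg.Agent.H25.Glaub2 Cfsg.Agent.H25.Clifford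

open scoped ComplexConjugate

variable {Γ : Type*} [Group Γ] [Fintype Γ] {p : ℕ} [hp : Fact p.Prime]

theorem fixed_sum {S H : Subgroup Γ} [Fintype H] (hS : IsPGroup p S) (hn : Nrm S H) [Fintype (IrrCharacter H)]
    (F : IrrCharacter H → ℤ) (hF : ∀ a ∈ S, ∀ ξ ξ' : IrrCharacter H, Tw a (ξ : H → ℂ) (ξ' : H → ℂ) → F ξ' = F ξ)
    [DecidablePred fun ξ : IrrCharacter H => TInv S (ξ : H → ℂ)] :
    (p : ℤ) ∣ ∑ ξ, F ξ - ∑ ξ ∈ Finset.univ.filter (fun ξ : IrrCharacter H => TInv S (ξ : H → ℂ)), F ξ := by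
  classical
  let _ := conjAct H S hn
  let _ := irrAct H S
  obtain ⟨y, -, hy⟩ := Cfsg.Agent.H25.Orbit.sum_fixed (P := S) (X := IrrCharacter H) (A := ℤ) hS F (fun s ξ => by
    apply hF s s.2
    intro g g' hg
    refine congrArg (ξ : H → ℂ) (Subtype.ext ?_)
    show ((s⁻¹ : S) : Γ) * (g' : Γ) * ((s⁻¹ : S) : Γ)⁻¹ = g
    rw [hg, Subgroup.coe_inv]; group)
  have h1 : Finset.univ.filter (fun ξ : IrrCharacter H => TInv S (ξ : H → ℂ)) =
      Finset.univ.filter (fun ξ : IrrCharacter H => ∀ g : S, g • ξ = ξ) := by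
    apply Finset.filter_congr
    intro ξ _
    rw [tinv_iff hn, inv_iff]
    rfl
  rw [h1, hy]
  exact ⟨y, by rw [nsmul_eq_mul]⟩

/-- the data -/
structure PD (p : ℕ) (P K Q C : Subgroup Γ) : Prop where
  hP : IsPGroup p P
  hPK : ∀ x ∈ P, ∀ k ∈ K, x * k * x⁻¹ ∈ K
  hQK : Q ≤ K
  hQn : ∀ k ∈ K, ∀ q ∈ Q, k * q * k⁻¹ ∈ Q
  hQp : IsPGroup p Q
  hcop : ¬ p ∣ Q.relIndex K
  hC : ∀ k : Γ, k ∈ C ↔ (k ∈ K ∧ ∀ x ∈ P, x * k * x⁻¹ * k⁻¹ ∈ Q)

theorem PD.hCK {P K Q C : Subgroup Γ} (h : PD p P K Q C) : C ≤ K := fun c hc => ((h.hC c).1 hc).1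

/-- the correspondence -/
structure Corr (p : ℕ) (P : Subgroup Γ) {K C : Subgroup Γ} [Fintype K] [Fintype C] (hCK : C ≤ K) : Prop where
  down : ∀ χ : IrrCharacter K, TInv P (χ : K → ℂ) → ∃ ξ : IrrCharacter C, TInv P (ξ : C → ℂ) ∧
      ¬ p ∣ mlt (Subgroup.inclusion hCK) χ ξ
  up : ∀ ξ : IrrCharacter C, TInv P (ξ : C → ℂ) → ∃ χ : IrrCharacter K, TInv P (χ : K → ℂ) ∧
      ¬ p ∣ mlt (Subgroup.inclusion hCK) χ ξ
  udown : ∀ χ : IrrCharacter K, TInv P (χ : K → ℂ) → ∀ ξ ξ' : IrrCharacter C, TInv P (ξ : C → ℂ) →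
      TInv P (ξ' : C → ℂ) →
      ¬ p ∣ mlt (Subgroup.inclusion hCK) χ ξ → ¬ p ∣ mlt (Subgroup.inclusion hCK) χ ξ' → ξ = ξ'
  uup : ∀ ξ : IrrCharacter C, TInv P (ξ : C → ℂ) → ∀ χ χ' : IrrCharacter K, TInv P (χ : K → ℂ) →
      TInv P (χ' : K → ℂ) →
      ¬ p ∣ mlt (Subgroup.inclusion hCK) χ ξ → ¬ p ∣ mlt (Subgroup.inclusion hCK) χ' ξ → χ = χ'
  pm : ∀ χ : IrrCharacter K, TInv P (χ : K → ℂ) → ∀ ξ : IrrCharacter C, TInv P (ξ : C → ℂ) →
      ¬ p ∣ mlt (Subgroup.inclusion hCK) χ ξ → (mlt (Subgroup.inclusion hCK) χ ξ : ℤ) ≡ 1 [ZMOD p] ∨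
        (mlt (Subgroup.inclusion hCK) χ ξ : ℤ) ≡ -1 [ZMOD p]

theorem tinv_zpowers {H : Subgroup Γ} {x : Γ} (hn : Nrm (Subgroup.zpowers x) H) {χ : H → ℂ} :
    TInv (Subgroup.zpowers x) χ ↔ XI x χ := by
  constructor
  · intro h
    exact h x (Subgroup.mem_zpowers x)
  · intro h s hs
    have key : ∀ n : ℕ, ∀ g g' : H, (g' : Γ) = x ^ n * g * (x ^ n)⁻¹ → χ g' = χ g := by
      intro n
      induction n with
      | zero => intro g g' hg; congr 1; apply Subtype.ext; rw [hg]; simp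
      | succ n ih =>
        intro g g' hg
        have h1 : x ^ n * (g : Γ) * (x ^ n)⁻¹ ∈ H := hn _ (Subgroup.pow_mem _ (Subgroup.mem_zpowers x) n) g g.2
        rw [← ih g ⟨_, h1⟩ rfl]
        apply h
        rw [hg, pow_succ']; group
    obtain ⟨n, hn'⟩ := Submonoid.mem_powers_iff _ _ |>.1 (mem_powers_iff_mem_zpowers.2 hs)
    intro g g' hg
    rw [← hn'] at hg
    exact key n g g' hg

/-- passage from one element to the whole group -/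
theorem corr_step {P K Q C₀ : Subgroup Γ} [Fintype K] [Fintype C₀] (hP : IsPGroup p P) {x : Γ} (hxP : x ∈ P)
    (hPK : Nrm P K) (hPC : Nrm P C₀) (h : Amb p K Q C₀ x) : Corr p P h.hCK := by
  classical
  haveI : Fintype (IrrCharacter K) := Fintype.ofFinite _
  haveI : Fintype (IrrCharacter C₀) := Fintype.ofFinite _
  obtain ⟨m1, m2, m3, m4, m5⟩ := h.main
  have hxI : ∀ {H : Subgroup Γ} {χ : H → ℂ}, TInv P χ → XI x χ := fun h => h x hxP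
  have hxp : IsPGroup p (Subgroup.zpowers x) := hP.to_le (Subgroup.zpowers_le.2 hxP)
  have hzK : Nrm (Subgroup.zpowers x) K := hPK.mono (Subgroup.zpowers_le.2 hxP)
  have hzC : Nrm (Subgroup.zpowers x) C₀ := hPC.mono (Subgroup.zpowers_le.2 hxP)
  have hpow : ∀ m : ℕ, ¬ p ∣ m → ¬ (p : ℤ) ∣ ((m : ℤ) ^ 2) := by
    intro m hm h1
    have := (Nat.prime_iff_prime_int.1 hp.out).dvd_of_dvd_pow h1
    exact hm (by exact_mod_cast this)
  refine ⟨?_, ?_, ?_, ?_, ?_⟩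
  · intro χ hχ
    obtain ⟨ξ, hξ, hm⟩ := m1 χ (hxI hχ)
    let F : IrrCharacter C₀ → ℤ := fun ξ => (mlt (Subgroup.inclusion h.hCK) χ ξ : ℤ) ^ 2
    have hF : ∀ a ∈ P, ∀ ξ ξ' : IrrCharacter C₀, Tw a (ξ : C₀ → ℂ) (ξ' : C₀ → ℂ) → F ξ' = F ξ := by
      intro a ha ξ ξ' hξ
      show (mlt _ χ ξ' : ℤ) ^ 2 = (mlt _ χ ξ : ℤ) ^ 2
      rw [mlt_tw hPK hPC h.hCK ha (hχ a ha) hξ]
    have e1 := fixed_sum hP hPC F hF
    have e2 := fixed_sum hxp hzC F (fun a ha => hF a (Subgroup.zpowers_le.2 hxP ha))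
    have e3 : ∑ ξ ∈ Finset.univ.filter (fun ξ : IrrCharacter C₀ => TInv (Subgroup.zpowers x) (ξ : C₀ → ℂ)), F ξ ≡
        F ξ [ZMOD p] := by
      have hmem : ξ ∈ Finset.univ.filter (fun ξ : IrrCharacter C₀ => TInv (Subgroup.zpowers x) (ξ : C₀ → ℂ)) :=
        Finset.mem_filter.2 ⟨Finset.mem_univ _, (tinv_zpowers hzC).2 hξ⟩
      rw [← Finset.add_sum_erase _ _ hmem]
      have : (p : ℤ) ∣ ∑ ξ ∈ (Finset.univ.filter (fun ξ : IrrCharacter C₀ =>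
          TInv (Subgroup.zpowers x) (ξ : C₀ → ℂ))).erase ξ, F ξ := by
        apply Finset.dvd_sum
        intro ξ' hξ'
        obtain ⟨h1, h2⟩ := Finset.mem_erase.1 hξ'
        have h3 := (tinv_zpowers hzC).1 (Finset.mem_filter.1 h2).2
        have h4 : p ∣ mlt (Subgroup.inclusion h.hCK) χ ξ' := by
          by_contra h5
          exact h1 (m3 χ (hxI hχ) ξ' ξ h3 hξ h5 hm)
        show (p : ℤ) ∣ (mlt _ χ ξ' : ℤ) ^ 2
        exact dvd_pow (by exact_mod_cast h4) two_ne_zero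
      have h6 := (Int.modEq_zero_iff_dvd).2 this
      calc _ ≡ F ξ + 0 [ZMOD p] := Int.ModEq.add_left _ h6
        _ = F ξ := add_zero _
    have e4 : ¬ (p : ℤ) ∣ ∑ ξ ∈ Finset.univ.filter (fun ξ : IrrCharacter C₀ => TInv P (ξ : C₀ → ℂ)), F ξ := by
      intro hd
      have h1 : (p : ℤ) ∣ ∑ ξ, F ξ := by
        have := dvd_add e1 hd
        rwa [sub_add_cancel] at this
      have h2 : (p : ℤ) ∣ ∑ ξ ∈ Finset.univ.filter (fun ξ : IrrCharacter C₀ =>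
          TInv (Subgroup.zpowers x) (ξ : C₀ → ℂ)), F ξ := by
        have := dvd_sub h1 e2
        rwa [sub_sub_cancel] at this
      exact hpow _ hm (Int.modEq_zero_iff_dvd.1 (e3.symm.trans (Int.modEq_zero_iff_dvd.2 h2)))
    obtain ⟨ξ', hξ', hd⟩ : ∃ ξ' ∈ Finset.univ.filter (fun ξ : IrrCharacter C₀ => TInv P (ξ : C₀ → ℂ)),
        ¬ (p : ℤ) ∣ F ξ' := by
      by_contra hcon
      push Not at hcon
      exact e4 (Finset.dvd_sum hcon)
    refine ⟨ξ', (Finset.mem_filter.1 hξ').2, fun h1 => hd ?_⟩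
    exact dvd_pow (by exact_mod_cast h1) two_ne_zero
  · intro ξ hξ
    obtain ⟨χ, hχ, hm⟩ := m2 ξ (hxI hξ)
    let F : IrrCharacter K → ℤ := fun χ => (mlt (Subgroup.inclusion h.hCK) χ ξ : ℤ) ^ 2
    have hF : ∀ a ∈ P, ∀ χ χ' : IrrCharacter K, Tw a (χ : K → ℂ) (χ' : K → ℂ) → F χ' = F χ := by
      intro a ha χ χ' hχ
      show (mlt _ χ' ξ : ℤ) ^ 2 = (mlt _ χ ξ : ℤ) ^ 2
      rw [mlt_tw hPK hPC h.hCK ha hχ (hξ a ha)]
    have e1 := fixed_sum hP hPK F hF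
    have e2 := fixed_sum hxp hzK F (fun a ha => hF a (Subgroup.zpowers_le.2 hxP ha))
    have e3 : ∑ χ ∈ Finset.univ.filter (fun χ : IrrCharacter K => TInv (Subgroup.zpowers x) (χ : K → ℂ)), F χ ≡
        F χ [ZMOD p] := by
      have hmem : χ ∈ Finset.univ.filter (fun χ : IrrCharacter K => TInv (Subgroup.zpowers x) (χ : K → ℂ)) :=
        Finset.mem_filter.2 ⟨Finset.mem_univ _, (tinv_zpowers hzK).2 hχ⟩
      rw [← Finset.add_sum_erase _ _ hmem]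
      have : (p : ℤ) ∣ ∑ χ ∈ (Finset.univ.filter (fun χ : IrrCharacter K =>
          TInv (Subgroup.zpowers x) (χ : K → ℂ))).erase χ, F χ := by
        apply Finset.dvd_sum
        intro χ' hχ'
        obtain ⟨h1, h2⟩ := Finset.mem_erase.1 hχ'
        have h3 := (tinv_zpowers hzK).1 (Finset.mem_filter.1 h2).2
        have h4 : p ∣ mlt (Subgroup.inclusion h.hCK) χ' ξ := by
          by_contra h5
          exact h1 (m4 ξ (hxI hξ) χ' χ h3 hχ h5 hm)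
        show (p : ℤ) ∣ (mlt _ χ' ξ : ℤ) ^ 2
        exact dvd_pow (by exact_mod_cast h4) two_ne_zero
      have h6 := (Int.modEq_zero_iff_dvd).2 this
      calc _ ≡ F χ + 0 [ZMOD p] := Int.ModEq.add_left _ h6
        _ = F χ := add_zero _
    have e4 : ¬ (p : ℤ) ∣ ∑ χ ∈ Finset.univ.filter (fun χ : IrrCharacter K => TInv P (χ : K → ℂ)), F χ := by
      intro hd
      have h1 : (p : ℤ) ∣ ∑ χ, F χ := by
        have := dvd_add e1 hd
        rwa [sub_add_cancel] at this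
      have h2 : (p : ℤ) ∣ ∑ χ ∈ Finset.univ.filter (fun χ : IrrCharacter K =>
          TInv (Subgroup.zpowers x) (χ : K → ℂ)), F χ := by
        have := dvd_sub h1 e2
        rwa [sub_sub_cancel] at this
      exact hpow _ hm (Int.modEq_zero_iff_dvd.1 (e3.symm.trans (Int.modEq_zero_iff_dvd.2 h2)))
    obtain ⟨χ', hχ', hd⟩ : ∃ χ' ∈ Finset.univ.filter (fun χ : IrrCharacter K => TInv P (χ : K → ℂ)),
        ¬ (p : ℤ) ∣ F χ' := by
      by_contra hcon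
      push Not at hcon
      exact e4 (Finset.dvd_sum hcon)
    refine ⟨χ', (Finset.mem_filter.1 hχ').2, fun h1 => hd ?_⟩
    exact dvd_pow (by exact_mod_cast h1) two_ne_zero
  · exact fun χ hχ ξ ξ' hξ hξ' => m3 χ (hxI hχ) ξ ξ' (hxI hξ) (hxI hξ')
  · exact fun ξ hξ χ χ' hχ hχ' => m4 ξ (hxI hξ) χ χ' (hxI hχ) (hxI hχ')
  · exact fun χ hχ ξ hξ => m5 χ (hxI hχ) ξ (hxI hξ)

/-- multiplicities in a composite -/
theorem mlt_comp {P K C₀ C : Subgroup Γ} [Fintype K] [Fintype C₀] [Fintype C] (hP : IsPGroup p P)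
    (hPK : Nrm P K) (hPC₀ : Nrm P C₀) (hPC : Nrm P C) {h1 : C₀ ≤ K} {h2 : C ≤ C₀} (hc : Corr p P h1)
    {χ : IrrCharacter K} (hχ : TInv P (χ : K → ℂ)) {ξ : IrrCharacter C} (hξ : TInv P (ξ : C → ℂ))
    {η : IrrCharacter C₀} (hη : TInv P (η : C₀ → ℂ)) (hm : ¬ p ∣ mlt (Subgroup.inclusion h1) χ η) :
    (mlt (Subgroup.inclusion (h2.trans h1)) χ ξ : ℤ) ≡
      (mlt (Subgroup.inclusion h1) χ η : ℤ) * (mlt (Subgroup.inclusion h2) η ξ : ℤ) [ZMOD p] := by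
  classical
  haveI : Fintype (IrrCharacter C₀) := Fintype.ofFinite _
  let F : IrrCharacter C₀ → ℤ := fun η => (mlt (Subgroup.inclusion h1) χ η : ℤ) * (mlt (Subgroup.inclusion h2) η ξ : ℤ)
  have hF : ∀ a ∈ P, ∀ η η' : IrrCharacter C₀, Tw a (η : C₀ → ℂ) (η' : C₀ → ℂ) → F η' = F η := by
    intro a ha η η' hη
    show (mlt _ χ η' : ℤ) * (mlt _ η' ξ : ℤ) = (mlt _ χ η : ℤ) * (mlt _ η ξ : ℤ)
    rw [mlt_tw hPK hPC₀ h1 ha (hχ a ha) hη, mlt_tw hPC₀ hPC h2 ha hη (hξ a ha)]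
  have e1 := fixed_sum hP hPC₀ F hF
  have e2 : (mlt (Subgroup.inclusion (h2.trans h1)) χ ξ : ℤ) = ∑ η, F η := by
    have := mlt_trans (Subgroup.inclusion h2) (Subgroup.inclusion h1) χ ξ
    have h3 : mlt (Subgroup.inclusion (h2.trans h1)) χ ξ =
        mlt ((Subgroup.inclusion h1).comp (Subgroup.inclusion h2)) χ ξ := rfl
    rw [h3, this]
    push_cast
    rfl
  rw [e2]
  have hmem : η ∈ Finset.univ.filter (fun ξ : IrrCharacter C₀ => TInv P (ξ : C₀ → ℂ)) :=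
    Finset.mem_filter.2 ⟨Finset.mem_univ _, hη⟩
  have e3 : (p : ℤ) ∣ ∑ ξ ∈ (Finset.univ.filter (fun ξ : IrrCharacter C₀ => TInv P (ξ : C₀ → ℂ))).erase η, F ξ := by
    apply Finset.dvd_sum
    intro ξ' hξ'
    obtain ⟨h3, h4⟩ := Finset.mem_erase.1 hξ'
    have h5 : p ∣ mlt (Subgroup.inclusion h1) χ ξ' := by
      by_contra h6
      exact h3 (hc.udown χ hχ ξ' η (Finset.mem_filter.1 h4).2 hη h6 hm)
    exact Dvd.dvd.mul_right (by exact_mod_cast h5) _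
  rw [← Finset.add_sum_erase _ _ hmem] at e1
  have e4 : (p : ℤ) ∣ ∑ η, F η - F η := by
    have := dvd_add e1 e3
    have h7 : ∑ η, F η - (F η + ∑ ξ ∈ (Finset.univ.filter (fun ξ : IrrCharacter C₀ => TInv P (ξ : C₀ → ℂ))).erase η, F ξ) +
      ∑ ξ ∈ (Finset.univ.filter (fun ξ : IrrCharacter C₀ => TInv P (ξ : C₀ → ℂ))).erase η, F ξ = ∑ η, F η - F η := by ring
    rwa [h7] at this
  exact ((Int.modEq_iff_dvd).2 e4).symm

/-- composition -/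
theorem Corr.comp {P K C₀ C : Subgroup Γ} [Fintype K] [Fintype C₀] [Fintype C] (hP : IsPGroup p P)
    (hPK : Nrm P K) (hPC₀ : Nrm P C₀) (hPC : Nrm P C) {h1 : C₀ ≤ K} {h2 : C ≤ C₀} (hc : Corr p P h1)
    (hc' : Corr p P h2) : Corr p P (h2.trans h1) := by
  have hpi : Prime (p : ℤ) := Nat.prime_iff_prime_int.1 hp.out
  have hmod : ∀ {a b c : ℕ}, (a : ℤ) ≡ (b : ℤ) * (c : ℤ) [ZMOD p] → ¬ p ∣ b → (¬ p ∣ a ↔ ¬ p ∣ c) := by
    intro a b c h hb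
    rw [not_iff_not]
    constructor
    · intro ha
      have h3 : (p : ℤ) ∣ (b : ℤ) * c := by
        rw [← Int.modEq_zero_iff_dvd]
        exact h.symm.trans (Int.modEq_zero_iff_dvd.2 (by exact_mod_cast ha))
      rcases hpi.dvd_or_dvd h3 with h4 | h4
      · exact absurd (by exact_mod_cast h4) hb
      · exact_mod_cast h4
    · intro hc
      have h3 : (p : ℤ) ∣ (a : ℤ) := by
        rw [← Int.modEq_zero_iff_dvd]
        exact h.trans (Int.modEq_zero_iff_dvd.2 (Dvd.dvd.mul_left (by exact_mod_cast hc) _))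
      exact_mod_cast h3
  refine ⟨?_, ?_, ?_, ?_, ?_⟩
  · intro χ hχ
    obtain ⟨η, hη, hm⟩ := hc.down χ hχ
    obtain ⟨ξ, hξ, hm'⟩ := hc'.down η hη
    refine ⟨ξ, hξ, (hmod (mlt_comp hP hPK hPC₀ hPC hc hχ hξ hη hm (h2 := h2)) hm).2 hm'⟩
  · intro ξ hξ
    obtain ⟨η, hη, hm'⟩ := hc'.up ξ hξ
    obtain ⟨χ, hχ, hm⟩ := hc.up η hη
    exact ⟨χ, hχ, (hmod (mlt_comp hP hPK hPC₀ hPC hc hχ hξ hη hm (h2 := h2)) hm).2 hm'⟩
  · intro χ hχ ξ ξ' hξ hξ' h3 h4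
    obtain ⟨η, hη, hm⟩ := hc.down χ hχ
    have h5 := (hmod (mlt_comp hP hPK hPC₀ hPC hc hχ hξ hη hm (h2 := h2)) hm).1 h3
    have h6 := (hmod (mlt_comp hP hPK hPC₀ hPC hc hχ hξ' hη hm (h2 := h2)) hm).1 h4
    exact hc'.udown η hη ξ ξ' hξ hξ' h5 h6
  · intro ξ hξ χ χ' hχ hχ' h3 h4
    obtain ⟨η, hη, hm⟩ := hc.down χ hχ
    obtain ⟨η', hη', hm'⟩ := hc.down χ' hχ'
    have h5 := (hmod (mlt_comp hP hPK hPC₀ hPC hc hχ hξ hη hm (h2 := h2)) hm).1 h3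
    have h6 := (hmod (mlt_comp hP hPK hPC₀ hPC hc hχ' hξ hη' hm' (h2 := h2)) hm').1 h4
    obtain rfl := hc'.uup ξ hξ η η' hη hη' h5 h6
    exact hc.uup η hη χ χ' hχ hχ' hm hm'
  · intro χ hχ ξ hξ h3
    obtain ⟨η, hη, hm⟩ := hc.down χ hχ
    have h4 := mlt_comp hP hPK hPC₀ hPC hc hχ hξ hη hm (h2 := h2)
    have h5 := (hmod h4 hm).1 h3
    rcases hc.pm χ hχ η hη hm with h6 | h6 <;> rcases hc'.pm η hη ξ hξ h5 with h7 | h7
    · left; exact h4.trans ((h6.mul h7).trans (by norm_num))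
    · right; exact h4.trans ((h6.mul h7).trans (by norm_num))
    · right; exact h4.trans ((h6.mul h7).trans (by norm_num))
    · left; exact h4.trans ((h6.mul h7).trans (by norm_num))

theorem corr_of_eq {P K C : Subgroup Γ} [Fintype K] [Fintype C] (hCK : C ≤ K) (hKC : K ≤ C) : Corr p P hCK := by
  have hb : Function.Bijective (Subgroup.inclusion hCK) :=
    ⟨Subgroup.inclusion_injective hCK, fun g => ⟨⟨g, hKC g.2⟩, Subtype.ext rfl⟩⟩
  refine ⟨?_, ?_, ?_, ?_, ?_⟩ <;> simp only [mlt_bij_dvd hp.out hb]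
  · intro χ hχ
    refine ⟨⟨fun c => (χ : K → ℂ) (Subgroup.inclusion hCK c), IsIrr.comp χ.2 (Subgroup.inclusion hCK) hb.2⟩, ?_, rfl⟩
    intro s hs g g' hg
    exact hχ s hs _ _ hg
  · intro ξ hξ
    obtain ⟨χ, hχ⟩ := exists_of_bij hb ξ
    refine ⟨χ, ?_, hχ⟩
    intro s hs g g' hg
    have := hξ s hs ⟨g, hKC g.2⟩ ⟨g', hKC g'.2⟩ hg
    rw [← hχ] at this
    exact this
  · intro χ _ ξ ξ' _ _ h1 h2
    exact Subtype.ext (h1.symm.trans h2)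
  · intro ξ _ χ χ' _ _ h1 h2
    apply Subtype.ext
    ext k
    exact congrFun (h1.trans h2.symm) ⟨k, hKC k.2⟩
  · intro χ _ ξ _ h1
    left
    classical
    rw [mlt_bij hb, if_pos h1]
    rfl

/-- the relative Glauberman correspondence -/
theorem PD.corr (n : ℕ) : ∀ {P K Q C : Subgroup Γ} [Fintype K] [Fintype C] (h : PD p P K Q C),
    Nat.card K = n → Corr p P h.hCK := by
  classical
  induction n using Nat.strong_induction_on with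
  | _ n ih =>
  intro P K Q C _ _ h hn
  by_cases hKC : K ≤ C
  · exact corr_of_eq h.hCK hKC
  -- `P₀`: the elements acting trivially modulo `Q`
  have hQx : ∀ x ∈ P, ∀ q ∈ Q, x * q * x⁻¹ ∈ Q := by
    intro x hx q hq
    obtain ⟨a, ha⟩ := h.hQp ⟨q, hq⟩
    have ha' : q ^ p ^ a = 1 := congrArg Subtype.val ha
    haveI : (Q.subgroupOf K).Normal := ⟨fun a ha g => by
      rw [Subgroup.mem_subgroupOf] at ha ⊢
      exact h.hQn g g.2 a ha⟩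
    have hxq : x * q * x⁻¹ ∈ K := h.hPK x hx q (h.hQK hq)
    have h1 := mem_of_pelt (L := K) (p := p) ⊤ (Q.subgroupOf K) le_top (by
      rw [Subgroup.relIndex_top_right]; exact h.hcop) (u := ⟨x * q * x⁻¹, hxq⟩) (Subgroup.mem_top _) (n := a)
      (by
        have : (⟨x * q * x⁻¹, hxq⟩ : K) ^ p ^ a = 1 := Subtype.ext (by
          show (x * q * x⁻¹) ^ p ^ a = 1
          rw [conj_pow, ha', mul_one, mul_inv_cancel])
        rw [this]; exact Subgroup.one_mem _)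
    exact h1
  let P₀ : Subgroup P :=
    { carrier := {x | ∀ k ∈ K, (x : Γ) * k * (x : Γ)⁻¹ * k⁻¹ ∈ Q}
      one_mem' := by
        intro k _
        show (1 : Γ) * k * (1 : Γ)⁻¹ * k⁻¹ ∈ Q
        simp [Q.one_mem]
      mul_mem' := by
        intro a b ha hb k hk
        have h1 := ha k hk
        have h2 := hQx a a.2 _ (hb k hk)
        have : ((a * b : P) : Γ) * k * ((a * b : P) : Γ)⁻¹ * k⁻¹ =
            ((a : Γ) * ((b : Γ) * k * (b : Γ)⁻¹ * k⁻¹) * (a : Γ)⁻¹) * ((a : Γ) * k * (a : Γ)⁻¹ * k⁻¹) := by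
          push_cast; group
        rw [this]
        exact Q.mul_mem h2 h1
      inv_mem' := by
        intro a ha k hk
        have h1 := h.hPK (a : Γ)⁻¹ (P.inv_mem a.2) k hk
        rw [inv_inv] at h1
        have h2 := ha _ h1
        have : ((a⁻¹ : P) : Γ) * k * ((a⁻¹ : P) : Γ)⁻¹ * k⁻¹ =
            ((a : Γ) * ((a : Γ)⁻¹ * k * (a : Γ)) * (a : Γ)⁻¹ * ((a : Γ)⁻¹ * k * (a : Γ))⁻¹)⁻¹ := by
          push_cast; group
        rw [this]
        exact Q.inv_mem h2 }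
  have hP₀ : P₀.Normal := ⟨fun a ha g k hk => by
    have h1 := h.hPK (g : Γ)⁻¹ (P.inv_mem g.2) k hk
    rw [inv_inv] at h1
    have h2 := hQx g g.2 _ (ha _ h1)
    have : ((g * a * g⁻¹ : P) : Γ) * k * ((g * a * g⁻¹ : P) : Γ)⁻¹ * k⁻¹ =
        (g : Γ) * ((a : Γ) * ((g : Γ)⁻¹ * k * (g : Γ)) * (a : Γ)⁻¹ * ((g : Γ)⁻¹ * k * (g : Γ))⁻¹) * (g : Γ)⁻¹ := by
      push_cast; group
    rw [this]
    exact h2⟩
  have hne : P₀ ≠ ⊤ := by
    intro htop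
    apply hKC
    intro k hk
    rw [h.hC]
    refine ⟨hk, fun x hx => ?_⟩
    have : (⟨x, hx⟩ : P) ∈ P₀ := by rw [htop]; exact Subgroup.mem_top _
    exact this k hk
  -- central element of `P / P₀`
  haveI : Nontrivial (P ⧸ P₀) := QuotientGroup.nontrivial_iff.2 hne
  have hquot : IsPGroup p (P ⧸ P₀) := h.hP.to_quotient P₀
  haveI := hquot.center_nontrivial
  obtain ⟨⟨z, hz⟩, hz1⟩ := exists_ne (1 : Subgroup.center (P ⧸ P₀))
  obtain ⟨x, rfl⟩ := QuotientGroup.mk_surjective z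
  have hx0 : x ∉ P₀ := by
    intro hx
    apply hz1
    apply Subtype.ext
    exact (QuotientGroup.eq_one_iff x).2 hx
  have hcen : ∀ y : P, x⁻¹ * (y⁻¹ * x * y) ∈ P₀ := by
    intro y
    rw [← QuotientGroup.eq]
    have := Subgroup.mem_center_iff.1 hz (y : P ⧸ P₀)
    rw [QuotientGroup.mk_mul, QuotientGroup.mk_mul, QuotientGroup.mk_inv, mul_assoc, ← this, inv_mul_cancel_left]
  -- `C₀`
  let C₀ : Subgroup Γ :=
    { carrier := {k | k ∈ K ∧ (x : Γ) * k * (x : Γ)⁻¹ * k⁻¹ ∈ Q}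
      one_mem' := ⟨K.one_mem, by simp [Q.one_mem]⟩
      mul_mem' := by
        rintro a b ⟨ha, ha'⟩ ⟨hb, hb'⟩
        refine ⟨K.mul_mem ha hb, ?_⟩
        have : (x : Γ) * (a * b) * (x : Γ)⁻¹ * (a * b)⁻¹ =
            ((x : Γ) * a * (x : Γ)⁻¹ * a⁻¹) * (a * ((x : Γ) * b * (x : Γ)⁻¹ * b⁻¹) * a⁻¹) := by group
        rw [this]
        exact Q.mul_mem ha' (h.hQn a ha _ hb')
      inv_mem' := by
        rintro a ⟨ha, ha'⟩
        refine ⟨K.inv_mem ha, ?_⟩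
        have h2 : (x : Γ) * a⁻¹ * (x : Γ)⁻¹ * (a⁻¹)⁻¹ =
            ((x : Γ) * a * (x : Γ)⁻¹)⁻¹ * ((x : Γ) * a * (x : Γ)⁻¹ * a⁻¹)⁻¹ * ((x : Γ) * a * (x : Γ)⁻¹) := by group
        rw [h2]
        have h3 := h.hPK x x.2 a ha
        have := h.hQn _ (K.inv_mem h3) _ (Q.inv_mem ha')
        rwa [inv_inv] at this }
  have hC₀K : C₀ ≤ K := fun k hk => hk.1
  haveI : Fintype C₀ := Fintype.ofFinite _
  have hamb : Amb p K Q C₀ (x : Γ) := by
    refine ⟨h.hQK, h.hQn, h.hcop, ?_, h.hQp, ?_, fun k => Iff.rfl⟩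
    · obtain ⟨a, ha⟩ := (IsPGroup.iff_orderOf.1 h.hP) x
      exact ⟨a, by rw [← ha, Subgroup.orderOf_coe]⟩
    · intro k
      constructor
      · exact h.hPK x x.2 k
      · intro hk
        have := h.hPK (x : Γ)⁻¹ (P.inv_mem x.2) _ hk
        have e : (x : Γ)⁻¹ * ((x : Γ) * k * (x : Γ)⁻¹) * (x : Γ)⁻¹⁻¹ = k := by group
        rwa [e] at this
  have hPC₀ : Nrm P C₀ := by
    rintro y hy k ⟨hk, hk'⟩
    refine ⟨h.hPK y hy k hk, ?_⟩
    have h1 := hcen ⟨y, hy⟩ k hk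
    -- (x z) k (x z)⁻¹ k⁻¹ with z = x⁻¹ (y⁻¹ x y)
    have h2 : (y⁻¹ * x * y) * k * (y⁻¹ * x * y)⁻¹ * k⁻¹ ∈ Q := by
      have h3 := hQx x x.2 _ h1
      have : (y⁻¹ * x * y) * k * (y⁻¹ * x * y)⁻¹ * k⁻¹ =
          ((x : Γ) * (((x : Γ)⁻¹ * (y⁻¹ * x * y)) * k * ((x : Γ)⁻¹ * (y⁻¹ * x * y))⁻¹ * k⁻¹) * (x : Γ)⁻¹) *
          ((x : Γ) * k * (x : Γ)⁻¹ * k⁻¹) := by group
      rw [this]
      exact Q.mul_mem h3 hk'
    have h4 := hQx y hy _ h2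
    have : (x : Γ) * (y * k * y⁻¹) * (x : Γ)⁻¹ * (y * k * y⁻¹)⁻¹ =
        y * ((y⁻¹ * x * y) * k * (y⁻¹ * x * y)⁻¹ * k⁻¹) * y⁻¹ := by group
    rw [this]
    exact h4
  have hcard : Nat.card C₀ < n := by
    rw [← hn]
    have hlt : C₀ < K := by
      refine lt_of_le_of_ne hC₀K ?_
      intro heq
      apply hx0
      intro k hk
      rw [← heq] at hk
      exact hk.2
    exact Set.ncard_lt_ncard (SetLike.coe_ssubset_coe.2 hlt) (Set.toFinite _)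
  have hQC₀ : Q ≤ C₀ := by
    intro q hq
    refine ⟨h.hQK hq, Q.mul_mem (hQx x x.2 q hq) (Q.inv_mem hq)⟩
  have hPD : PD p P C₀ Q C := by
    refine ⟨h.hP, hPC₀, hQC₀, fun k hk => h.hQn k hk.1, h.hQp, ?_, ?_⟩
    · intro hd
      exact h.hcop (hd.trans (by
        have := Subgroup.relIndex_mul_relIndex Q C₀ K hQC₀ hC₀K
        exact Dvd.intro _ this))
    · intro k
      rw [h.hC]
      constructor
      · rintro ⟨h1, h2⟩
        exact ⟨⟨h1, h2 x x.2⟩, h2⟩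
      · rintro ⟨h1, h2⟩
        exact ⟨h1.1, h2⟩
  have hPC : Nrm P C := by
    intro y hy c hc
    rw [h.hC] at hc ⊢
    refine ⟨h.hPK y hy c hc.1, fun x hx => ?_⟩
    have h1 := hc.2 (y⁻¹ * x * y) (P.mul_mem (P.mul_mem (P.inv_mem hy) hx) hy)
    have h2 := hQx y hy _ h1
    have : x * (y * c * y⁻¹) * x⁻¹ * (y * c * y⁻¹)⁻¹ =
        y * ((y⁻¹ * x * y) * c * (y⁻¹ * x * y)⁻¹ * c⁻¹) * y⁻¹ := by group
    rw [this]; exact h2
  have c1 := corr_step h.hP x.2 h.hPK hPC₀ hamb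
  have c2 := ih _ hcard hPD rfl
  exact Corr.comp h.hP h.hPK hPC₀ hPC c1 c2

end Cfsg.Agent.H26.RelG
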