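import Cfsg.Agent.H26_SpFi23

/-! `Fi23`: the double cover of `Fi22`. -/

set_option autoImplicit false
set_option maxRecDepth 100000

namespace Cfsg.Agent.H26.SpFi23

open Cfsg H8.CE H8.Net H8.Act H8.Cox H8.CS H8.Act2 H8.Act3 H8.Fi23M H8.Fi23R H26.Sp Cfsg.Spor

/-- letters for the generators of `Fi22` -/
def σ : Fi22.Gen → ℕ
  | .a => 1
  | .b => 2
  | .c => 3
  | .d => 4
  | .e => 5
  | .f => 6
  | .g => 7
  | .h => 9
  | .i => 10

theorem σ_mem (t : Fi22.Gen) : σ t ∈ l9 := by cases t <;> decide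

/-- the generators in the point stabiliser -/
noncomputable def g0 (t : Fi22.Gen) : Hl l9 := ⟨x (σ t), Subgroup.subset_closure ⟨σ t, σ_mem t, rfl⟩⟩

theorem ev_mem {l : List ℕ} : ∀ {w : List ℕ}, (∀ y ∈ w, y ∈ l) → ev x w ∈ Hl l
  | [], _ => one_mem _
  | y :: w, h => by
    rw [ev_cons]
    exact mul_mem (Subgroup.subset_closure ⟨y, h y (by simp), rfl⟩) (ev_mem fun y' hy' => h y' (by simp [hy']))

theorem sq (t : Fi22.Gen) : x (σ t) * x (σ t) = 1 := by
  have h := hic (σ t) (by cases t <;> decide)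
  have e : il ic (σ t) = σ t := by cases t <;> decide
  rw [e] at h
  exact mul_eq_one_iff_eq_inv.2 h

theorem pair_dec : ∀ a b : Fi22.Gen, pairOk rels (σ a) (σ b) (coxLabel Fi22.edges a b) = true := by
  intro a b
  cases a <;> cases b <;> decide +kernel

theorem pair (a b : Fi22.Gen) : (g0 a * g0 b) ^ coxLabel Fi22.edges a b = 1 := by
  apply Subtype.ext
  rw [Subgroup.coe_pow, Subgroup.coe_mul]
  exact pairOk_sound hrels0 (sq a) (pair_dec a b)

theorem rel1 : (g0 .d * g0 .c * g0 .b * g0 .d * g0 .e * g0 .f * g0 .d * g0 .h * g0 .i) ^ 10 = 1 := by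
  apply Subtype.ext
  have h := hrels0 (powW [4, 3, 2, 4, 5, 6, 4, 9, 10] 10) (by decide +kernel)
  rw [ev_powW] at h
  simp only [ev_cons, ev_nil, mul_one] at h
  simp only [Subgroup.coe_pow, Subgroup.coe_mul, Subgroup.coe_one, g0, σ, mul_assoc] at h ⊢
  exact h

theorem rel2 : (g0 .a * g0 .b * g0 .c * g0 .d * g0 .e * g0 .f * g0 .h) ^ 9 = 1 := by
  apply Subtype.ext
  have h := hrels0 (powW [1, 2, 3, 4, 5, 6, 9] 9) (by decide +kernel)
  rw [ev_powW] at h
  simp only [ev_cons, ev_nil, mul_one] at h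
  simp only [Subgroup.coe_pow, Subgroup.coe_mul, Subgroup.coe_one, g0, σ, mul_assoc] at h ⊢
  exact h

theorem z_eq : z = (x 2 * (x 3 * (x 4 * (x 5 * (x 6 * (x 7 * x 9)))))) ^ 9 := by
  have h : ev x (powW [2, 3, 4, 5, 6, 7, 9] 9) = (x 2 * (x 3 * (x 4 * (x 5 * (x 6 * (x 7 * x 9)))))) ^ 9 := by
    rw [ev_powW]
    simp only [ev_cons, ev_nil, mul_one]
  rw [← h, z]
  unfold zw
  rfl

/-- the central involution in the point stabiliser -/
noncomputable def zH : Hl l9 := (g0 .b * g0 .c * g0 .d * g0 .e * g0 .f * g0 .g * g0 .h) ^ 9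

theorem zH_coe : ((zH : Hl l9) : Fi23) = z := by
  rw [z_eq]
  simp only [zH, Subgroup.coe_pow, Subgroup.coe_mul, g0, σ, mul_assoc]

theorem zH_sq : zH * zH = 1 := Subtype.ext (by rw [Subgroup.coe_mul, zH_coe, Subgroup.coe_one]; exact z_sq)
theorem zH_ne : zH ≠ 1 := fun h => z_ne (by rw [← zH_coe, h]; rfl)
theorem zH_comm (h : Hl l9) : h * zH = zH * h :=
  Subtype.ext (by rw [Subgroup.coe_mul, Subgroup.coe_mul, zH_coe]; exact z_cent h h.2)

instance zN : (Subgroup.zpowers zH).Normal := by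
  refine ⟨fun n hn g => ?_⟩
  obtain ⟨k, rfl⟩ := Subgroup.mem_zpowers_iff.1 hn
  have h1 : Commute g (zH ^ k) := (show Commute g zH from zH_comm g).zpow_right k
  rw [h1.eq, mul_assoc, mul_inv_cancel, mul_one]
  exact hn

/-- images of the generators of `Fi22` -/
noncomputable def f0 (t : Fi22.Gen) : Hl l9 ⧸ Subgroup.zpowers zH := QuotientGroup.mk (g0 t)

theorem f0_eq (t : Fi22.Gen) : f0 t = QuotientGroup.mk' (Subgroup.zpowers zH) (g0 t) := rfl

theorem hrel : ∀ r ∈ coxRelators Fi22.edges ∪ {r | r ∈ Fi22.extra}, FreeGroup.lift f0 r = 1 := by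
  rintro r (⟨a, -, b, -, rfl⟩ | hr)
  · rw [map_pow, map_mul, FreeGroup.lift_apply_of, FreeGroup.lift_apply_of, f0_eq, f0_eq, ← map_mul, ← map_pow, pair, map_one]
  · simp only [Set.mem_ofPred_eq, Fi22.extra, List.mem_cons, List.not_mem_nil, or_false] at hr
    rcases hr with rfl | rfl | rfl
    · simp only [map_pow, map_mul, FreeGroup.lift_apply_of, f0_eq]
      simp only [← map_mul, ← map_pow]
      rw [rel1, map_one]
    · simp only [map_pow, map_mul, FreeGroup.lift_apply_of, f0_eq]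
      simp only [← map_mul, ← map_pow]
      rw [rel2, map_one]
    · simp only [map_pow, map_mul, FreeGroup.lift_apply_of, f0_eq]
      simp only [← map_mul, ← map_pow]
      rw [QuotientGroup.mk'_apply, QuotientGroup.eq_one_iff]
      exact Subgroup.mem_zpowers zH

/-- `Fi22` onto the central quotient -/
noncomputable def fh : Fi22 →* Hl l9 ⧸ Subgroup.zpowers zH := PresentedGroup.toGroup hrel

theorem gens_top (T : Subgroup (Hl l9)) (h : ∀ t, g0 t ∈ T) : T = ⊤ := by
  rw [eq_top_iff]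
  rintro ⟨g, hg⟩ -
  refine Subgroup.closure_induction (p := fun g hg => (⟨g, hg⟩ : Hl l9) ∈ T) ?_ ?_ ?_ ?_ hg
  · rintro _ ⟨y, hy, rfl⟩
    simp only [l9, Set.mem_ofPred_eq, List.mem_cons, List.not_mem_nil, or_false] at hy
    rcases hy with rfl | rfl | rfl | rfl | rfl | rfl | rfl | rfl | rfl
    exacts [h .a, h .b, h .c, h .d, h .e, h .f, h .g, h .h, h .i]
  · exact T.one_mem
  · intro a b ha hb h1 h2
    exact T.mul_mem h1 h2
  · intro a ha h1
    exact T.inv_mem h1

theorem fh_surj : Function.Surjective fh := by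
  rw [← MonoidHom.range_eq_top]
  have h1 : (fh.range).comap (QuotientGroup.mk' (Subgroup.zpowers zH)) = ⊤ := by
    apply gens_top
    intro t
    rw [Subgroup.mem_comap]
    exact ⟨PresentedGroup.of t, PresentedGroup.toGroup.of hrel⟩
  rw [eq_top_iff]
  intro q _
  obtain ⟨h, rfl⟩ := QuotientGroup.mk'_surjective (Subgroup.zpowers zH) q
  have : h ∈ (fh.range).comap (QuotientGroup.mk' (Subgroup.zpowers zH)) := by rw [h1]; exact Subgroup.mem_top h
  exact this

theorem cardH : Nat.card (Hl l9) = 2 * Nat.card Fi22 := by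
  have h := Subgroup.card_mul_index (Hl l9)
  rw [H_index.1, main.1] at h
  rw [H8.Fi22M.main.1]
  omega

theorem pow9 {X : Type*} [Group X] {L : Subgroup X} (hL : L.index = 2) (g : X) : g ^ 9 ∈ L ↔ g ∈ L := by
  have h2 : g ^ 9 = (g ^ 4) ^ 2 * g := by rw [← pow_mul, ← pow_succ]
  rw [h2, Subgroup.mul_mem_iff_of_index_two hL]
  exact ⟨fun h => h.1 (Subgroup.sq_mem_of_index_two hL _), fun h => ⟨fun _ => h, fun _ => Subgroup.sq_mem_of_index_two hL _⟩⟩

theorem adj (a b : Fi22.Gen) (h : coxLabel Fi22.edges a b = 3) : (g0 a * g0 b) ^ 3 = 1 := by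
  rw [← h]; exact pair a b

theorem no2 (L : Subgroup (Hl l9)) : L.index ≠ 2 := by
  intro hL
  have hab := idx2_adj hL (adj .a .b (by decide))
  have hbc := idx2_adj hL (adj .b .c (by decide))
  have hcd := idx2_adj hL (adj .c .d (by decide))
  have hde := idx2_adj hL (adj .d .e (by decide))
  have hdh := idx2_adj hL (adj .d .h (by decide))
  have hef := idx2_adj hL (adj .e .f (by decide))
  have hfg := idx2_adj hL (adj .f .g (by decide))
  have hhi := idx2_adj hL (adj .h .i (by decide))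
  have h1 : (g0 .a * g0 .b * g0 .c * g0 .d * g0 .e * g0 .f * g0 .h) ^ 9 ∈ L := by rw [rel2]; exact L.one_mem
  rw [pow9 hL] at h1
  have ha : g0 .a ∈ L := by
    by_contra ha
    have hb : g0 .b ∉ L := fun h => ha (hab.2 h)
    have hc : g0 .c ∉ L := fun h => hb (hbc.2 h)
    have hd : g0 .d ∉ L := fun h => hc (hcd.2 h)
    have he : g0 .e ∉ L := fun h => hd (hde.2 h)
    have hf : g0 .f ∉ L := fun h => he (hef.2 h)
    have hh : g0 .h ∉ L := fun h => hd (hdh.2 h)
    simp only [Subgroup.mul_mem_iff_of_index_two hL, ha, hb, hc, hd, he, hf, hh, iff_false, iff_true, not_true,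
      not_false_iff, true_iff, false_iff] at h1
  have hb := hab.1 ha
  have hc := hbc.1 hb
  have hd := hcd.1 hc
  have he := hde.1 hd
  have hf := hef.1 he
  have hg := hfg.1 hf
  have hh := hdh.1 hd
  have hi := hhi.1 hh
  have h2 : L = ⊤ := by
    apply gens_top
    intro t
    cases t
    exacts [ha, hb, hc, hd, he, hf, hg, hh, hi]
  rw [h2, Subgroup.index_top] at hL
  exact absurd hL (by decide)

theorem center_Fi22 : Subgroup.center Fi22 = ⊥ := by
  haveI := H8.Fi22M.simple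
  rcases H8.Fi22M.simple.eq_bot_or_eq_top_of_normal _ (inferInstance : (Subgroup.center Fi22).Normal) with h1 | h1
  · exact h1
  · exfalso
    have hcomm : ∀ a b : Fi22, a * b = b * a := by
      intro a b
      have : b ∈ Subgroup.center Fi22 := by rw [h1]; exact Subgroup.mem_top b
      exact Subgroup.mem_center_iff.1 this a
    have hp : (Nat.card Fi22).Prime := by
      letI : CommGroup Fi22 := { (inferInstance : Group Fi22) with mul_comm := hcomm }
      exact IsSimpleGroup.prime_card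
    rw [H8.Fi22M.main.1] at hp
    exact absurd (hp.eq_one_or_self_of_dvd 2 (by decide)) (by decide)

theorem nsdc : IsNonsplitDoubleCover (Hl l9) Fi22 :=
  nsdc_of H8.Fi22M.simple center_Fi22 zH zH_sq zH_ne zH_comm _ rfl fh fh_surj cardH no2

theorem S0472 : ∃ (G : Type) (_ : Group G) (_ : Finite G), Cfsg.IsFi23 G ∧ ∃ D : Set G,
    Cfsg.IsThreeTranspositionClass D ∧ Nat.card D = 31671 ∧ ∀ d ∈ D, ∃ (K : Type) (_ : Group K), Cfsg.IsFi22 K ∧
      Cfsg.IsNonsplitDoubleCover (Subgroup.centralizer ({d} : Set G)) K := by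
  refine ⟨Fi23, inferInstance, inferInstance, isX, conjugatesOf z, main3.2.1, by rw [main3.2.2, H_index.1], ?_⟩
  intro d hd
  refine ⟨Fi22, inferInstance, H8.Fi22M.isX, ?_⟩
  obtain ⟨e⟩ := centralizer_conj hd
  refine nsdc_congr ((MulEquiv.subgroupCongr main3.1.symm).trans e) nsdc

end Cfsg.Agent.H26.SpFi23
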