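import Mathlib
import Cfsg.Agent.H26_Basic
import Cfsg.Agent.H26_Kernel
import Cfsg.Agent.H1_Coprime2
import Cfsg.Agent.H3_Extraspecial
import Cfsg.Agent.H3_CharMult
import Cfsg.Agent.H3_CharInt

/-!
H26_TIAct: degrees of faithful characters for a Frobenius-like action on a group of class two.
-/

set_option autoImplicit false
set_option linter.style.haveILetI false

namespace Cfsg.Agent.H26.TIAct

open Cfsg Cfsg.Agent.H3.CharIrr Cfsg.Agent.H3.CharComplete Cfsg.Agent.H3.CharInd Cfsg.Agent.H26.Basic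
  Cfsg.Agent.H26.Kernel Cfsg.Agent.H3.CharMult
open scoped ComplexConjugate commutatorElement

variable {G : Type*} [Group G] {P R : Subgroup G} (hn : P ≤ Subgroup.normalizer (R : Set G))

/-- the action by conjugation -/
def al : P →* MulAut R := R.normalizerMonoidHom.comp (Subgroup.inclusion hn)

theorem al_coe (y : P) (k : R) : ((al hn y k : R) : G) = y * k * (y : G)⁻¹ := rfl

theorem al_mul (y z : P) (k : R) : al hn (y * z) k = al hn y (al hn z k) := by rw [map_mul]; rfl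

theorem al_inv (y : P) (k : R) : al hn y⁻¹ (al hn y k) = k := by
  rw [← al_mul, inv_mul_cancel, map_one]; rfl

theorem al_inv' (y : P) (k : R) : al hn y (al hn y⁻¹ k) = k := by
  rw [← al_mul, mul_inv_cancel, map_one]; rfl

theorem cent_of_fixed (hcomm : ⁅R, P⁆ = R)
    (hcl : ∀ a ∈ R, ∀ b ∈ R, ∀ h ∈ R, ⁅a, b⁆ * h = h * ⁅a, b⁆)
    (hclP : ∀ a ∈ R, ∀ b ∈ R, ∀ y ∈ P, ⁅a, b⁆ * y = y * ⁅a, b⁆)
    {c : G} (hc : c ∈ R) (hcP : ∀ y ∈ P, y * c = c * y) : ∀ h ∈ R, c * h = h * c := by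
  have h1 : ⁅R, P⁆ ≤ Subgroup.centralizer ({c} : Set G) := by
    rw [Subgroup.commutator_le]
    intro h hh y hy
    rw [Subgroup.mem_centralizer_iff]
    intro c' hc'
    rw [Set.mem_singleton_iff.1 hc']
    have e1 := hcl c hc h hh h hh
    have e2 := hclP c hc h hh y hy
    have e3 := hcP y hy
    -- c h = z h c
    have e4 : c * h = ⁅c, h⁆ * h * c := by rw [commutatorElement_def]; group
    have e5 : c * h⁻¹ = h⁻¹ * ⁅c, h⁆⁻¹ * c := by
      have : h⁻¹ * ⁅c, h⁆⁻¹ * c = h⁻¹ * (⁅c, h⁆⁻¹ * (c * h)) * h⁻¹ := by group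
      rw [this, e4]
      group
    rw [commutatorElement_def h y]
    calc c * (h * y * h⁻¹ * y⁻¹) = (c * h) * y * h⁻¹ * y⁻¹ := by group
      _ = ⁅c, h⁆ * h * (c * y) * h⁻¹ * y⁻¹ := by rw [e4]; group
      _ = ⁅c, h⁆ * h * (y * c) * h⁻¹ * y⁻¹ := by rw [e3]
      _ = ⁅c, h⁆ * h * y * (c * h⁻¹) * y⁻¹ := by group
      _ = ⁅c, h⁆ * h * y * (h⁻¹ * ⁅c, h⁆⁻¹ * c) * y⁻¹ := by rw [e5]
      _ = ⁅c, h⁆ * h * y * h⁻¹ * ⁅c, h⁆⁻¹ * (c * y⁻¹) := by group
      _ = ⁅c, h⁆ * h * y * h⁻¹ * ⁅c, h⁆⁻¹ * (y⁻¹ * c) := by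
          have : c * y⁻¹ = y⁻¹ * c := by
            calc c * y⁻¹ = y⁻¹ * (y * c) * y⁻¹ := by group
              _ = y⁻¹ * (c * y) * y⁻¹ := by rw [e3]
              _ = y⁻¹ * c := by group
          rw [this]
      _ = (⁅c, h⁆ * h) * y * h⁻¹ * ⁅c, h⁆⁻¹ * y⁻¹ * c := by group
      _ = (h * ⁅c, h⁆) * y * h⁻¹ * ⁅c, h⁆⁻¹ * y⁻¹ * c := by rw [e1]
      _ = h * (⁅c, h⁆ * y) * h⁻¹ * ⁅c, h⁆⁻¹ * y⁻¹ * c := by group
      _ = h * (y * ⁅c, h⁆) * h⁻¹ * ⁅c, h⁆⁻¹ * y⁻¹ * c := by rw [e2]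
      _ = h * y * (⁅c, h⁆ * h⁻¹ * ⁅c, h⁆⁻¹) * y⁻¹ * c := by group
      _ = h * y * h⁻¹ * y⁻¹ * c := by
          have : ⁅c, h⁆ * h⁻¹ * ⁅c, h⁆⁻¹ = h⁻¹ := by
            rw [hcl c hc h hh h⁻¹ (R.inv_mem hh)]; group
          rw [this]
  intro h hh
  rw [hcomm] at h1
  exact (Subgroup.mem_centralizer_iff.1 (h1 hh)) c rfl

/-- coprime fixed points -/
theorem exists_fixed [Finite G] (hcop : (Nat.card P).Coprime (Nat.card R)) (hs : Group.IsSolvable R)
    (hTI : ∀ x ∈ P, x ≠ 1 → ∀ k ∈ R, x * k = k * x → ∀ y ∈ P, y * k = k * y)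
    (N : Subgroup R) [hNn : N.Normal] (x : P) (hx : x ≠ 1) (hxN : ∀ n ∈ N, al hn x n ∈ N) (k : R)
    (hk : al hn x k * k⁻¹ ∈ N) : ∃ c : R, (∀ y ∈ P, y * (c : G) = c * y) ∧ k⁻¹ * c ∈ N := by
  classical
  have hxG : (x : G) ≠ 1 := fun h => hx (Subtype.ext h)
  have hA : Subgroup.zpowers (x : G) ≤ P := by rw [Subgroup.zpowers_le]; exact x.2
  have hxN' : ∀ n ∈ N, al hn x⁻¹ n ∈ N := by
    intro n hn'
    -- finite order
    have h1 : ∀ j : ℕ, al hn (x ^ j) n ∈ N := by
      intro j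
      induction j with
      | zero => rw [pow_zero, map_one]; exact hn'
      | succ j ih => rw [pow_succ', al_mul]; exact hxN _ ih
    have h2 : x⁻¹ = x ^ (orderOf x - 1) := by
      rw [eq_comm, eq_inv_iff_mul_eq_one, ← pow_succ, Nat.sub_add_cancel (orderOf_pos x), pow_orderOf_eq_one]
    rw [h2]; exact h1 _
  have hN1 : R ≤ Subgroup.normalizer ((N.map R.subtype : Subgroup G) : Set G) := by
    intro r hr
    rw [Subgroup.mem_normalizer_iff]
    intro g
    constructor
    · rintro ⟨n, hn', rfl⟩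
      exact ⟨⟨r, hr⟩ * n * (⟨r, hr⟩ : R)⁻¹, hNn.conj_mem n hn' _, rfl⟩
    · rintro ⟨n, hn', hng⟩
      refine ⟨(⟨r, hr⟩ : R)⁻¹ * n * (⟨r, hr⟩ : R)⁻¹⁻¹, hNn.conj_mem n hn' _, ?_⟩
      have : (n : G) = r * g * r⁻¹ := hng
      show r⁻¹ * (n : G) * r⁻¹⁻¹ = g
      rw [this]; group
  have hNA : Subgroup.zpowers (x : G) ≤ Subgroup.normalizer ((N.map R.subtype : Subgroup G) : Set G) := by
    rw [Subgroup.zpowers_le, Subgroup.mem_normalizer_iff]
    intro g
    constructor
    · rintro ⟨n, hn', rfl⟩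
      exact ⟨al hn x n, hxN n hn', rfl⟩
    · rintro ⟨n, hn', hng⟩
      refine ⟨al hn x⁻¹ n, hxN' n hn', ?_⟩
      have : (n : G) = x * g * (x : G)⁻¹ := hng
      show ((x⁻¹ : P) : G) * (n : G) * ((x⁻¹ : P) : G)⁻¹ = g
      rw [this, Subgroup.coe_inv]; group
  have hfix : ∀ a ∈ Subgroup.zpowers (x : G), a * (k : G) * a⁻¹ * (k : G)⁻¹ ∈ N.map R.subtype := by
    -- the elements a with this property form a subgroup
    have key : ∀ y : P, (∀ n ∈ N, al hn y n ∈ N) → al hn y k * k⁻¹ ∈ N → ∀ z : P, al hn z k * k⁻¹ ∈ N →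
        al hn (y * z) k * k⁻¹ ∈ N := by
      intro y hy hyk z hzk
      have e : al hn (y * z) k * k⁻¹ = al hn y (al hn z k * k⁻¹) * (al hn y k * k⁻¹) := by
        rw [al_mul, map_mul, map_inv]; group
      rw [e]
      exact N.mul_mem (hy _ hzk) hyk
    intro a ha
    obtain ⟨j, rfl⟩ := (mem_powers_iff_mem_zpowers (x := (x : G))).2 ha
    have h3 : ∀ j : ℕ, al hn (x ^ j) k * k⁻¹ ∈ N := by
      intro j
      induction j with
      | zero => rw [pow_zero, map_one, MulAut.one_apply, mul_inv_cancel]; exact N.one_mem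
      | succ j ih =>
        rw [pow_succ']
        exact key x hxN hk _ ih
    exact ⟨al hn (x ^ j) k * k⁻¹, h3 j, by
      show ((x ^ j : P) : G) * (k : G) * ((x ^ j : P) : G)⁻¹ * (k : G)⁻¹ = _
      rw [Subgroup.coe_pow]⟩
  obtain ⟨c, hc, hkc⟩ := Cfsg.Agent.H1.Coprime.fixed_points_quotient (Subgroup.zpowers (x : G)) R (hA.trans hn)
    (Nat.Coprime.coprime_dvd_left (Subgroup.card_dvd_of_le hA) hcop) (Or.inr hs) (N.map R.subtype)
    (Subgroup.map_subtype_le _) hN1 hNA (k : G) k.2 hfix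
  refine ⟨⟨c, hc.1⟩, ?_, ?_⟩
  · have h4 := Subgroup.mem_centralizer_iff.1 hc.2 (x : G) (Subgroup.mem_zpowers _)
    exact hTI x x.2 hxG c hc.1 h4
  · obtain ⟨n, hn', hnk⟩ := hkc
    have : k⁻¹ * (⟨c, hc.1⟩ : R) = n := by
      apply Subtype.ext
      exact hnk.symm
    rw [this]; exact hn'

/-- (A): a nontrivial linear character has trivial stabilizer -/
theorem linear_trivial [Finite G] (hcop : (Nat.card P).Coprime (Nat.card R)) (hs : Group.IsSolvable R)
    (hcomm : ⁅R, P⁆ = R)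
    (hTI : ∀ x ∈ P, x ≠ 1 → ∀ k ∈ R, x * k = k * x → ∀ y ∈ P, y * k = k * y)
    (lam : R →* ℂˣ) (x : P) (hx : x ≠ 1) (hl : ∀ k, lam (al hn x k) = lam k) : ∀ k, lam k = 1 := by
  classical
  haveI : Fintype P := Fintype.ofFinite _
  let L : R →* ℂˣ := ∏ y : P, lam.comp (al hn y).toMonoidHom
  have hL : ∀ k, L k = ∏ y : P, lam (al hn y k) := by
    intro k
    simp only [L, MonoidHom.finsetProd_apply]
    rfl
  have hLinv : ∀ (z : P) k, L (al hn z k) = L k := by
    intro z k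
    rw [hL, hL, ← Equiv.prod_comp (Equiv.mulRight z) (fun y => lam (al hn y k))]
    refine Finset.prod_congr rfl fun y _ => ?_
    show _ = lam (al hn (y * z) k)
    rw [al_mul]
  have hL1 : ∀ k, L k = 1 := by
    have h1 : ⁅R, P⁆ ≤ L.ker.map R.subtype := by
      rw [Subgroup.commutator_le]
      intro h hh y hy
      refine ⟨⟨h, hh⟩ * al hn ⟨y, hy⟩ (⟨h, hh⟩ : R)⁻¹, ?_, ?_⟩
      · show L _ = 1
        rw [map_mul, hLinv, map_inv, mul_inv_cancel]
      · show h * (y * h⁻¹ * y⁻¹) = ⁅h, y⁆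
        rw [commutatorElement_def]; group
    rw [hcomm] at h1
    intro k
    obtain ⟨k', hk', he⟩ := h1 k.2
    have : k' = k := Subtype.ext he
    rw [← this]; exact hk'
  intro k
  obtain ⟨c, hc, hkc⟩ := exists_fixed hn hcop hs hTI lam.ker x hx (fun n hn' => by
    rw [MonoidHom.mem_ker, hl]; exact hn') k (by
    rw [MonoidHom.mem_ker, map_mul, map_inv, hl, mul_inv_cancel])
  have hlc : lam c = 1 := by
    have h1 : ∀ y : P, al hn y c = c := by
      intro y
      apply Subtype.ext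
      rw [al_coe, hc y y.2]; group
    have h2 := hL1 c
    rw [hL, Finset.prod_congr rfl (fun y _ => by rw [h1 y]), Finset.prod_const, Finset.card_univ,
      ← Nat.card_eq_fintype_card] at h2
    have h3 : lam c ^ Nat.card R = 1 := by rw [← map_pow, pow_card_eq_one', map_one]
    have h4 := pow_gcd_eq_one.2 ⟨h2, h3⟩
    rwa [Nat.Coprime.gcd_eq_one hcop, pow_one] at h4
  rw [MonoidHom.mem_ker, map_mul, map_inv, hlc, mul_one, inv_eq_one] at hkc
  exact hkc

theorem kerS_mul_left {K : Type*} [Group K] [Finite K] {χ : K → ℂ} (h : IsCharacter K χ) {g : K} (hg : χ g = χ 1) (x : K) :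
    χ (g * x) = χ x := ker_mul h hg x

include hn in
/-- (B): nonlinear characters have large degree -/
theorem nonlinear_bound [Fintype G] [Fintype R] (hcop : (Nat.card P).Coprime (Nat.card R)) (hs : Group.IsSolvable R)
    (hcomm : ⁅R, P⁆ = R)
    (hcl : ∀ a ∈ R, ∀ b ∈ R, ∀ h ∈ R, ⁅a, b⁆ * h = h * ⁅a, b⁆)
    (hclP : ∀ a ∈ R, ∀ b ∈ R, ∀ y ∈ P, ⁅a, b⁆ * y = y * ⁅a, b⁆)
    (hTI : ∀ x ∈ P, x ≠ 1 → ∀ k ∈ R, x * k = k * x → ∀ y ∈ P, y * k = k * y)
    {θ : R → ℂ} (hθ : IsIrrCharacter R θ) (h1 : θ 1 ≠ 1) :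
    Nat.card P + 1 ≤ charDegree θ ^ 2 := by
  classical
  have hθc : IsCharacter R θ := IsIrr.isCharacter hθ
  set K := kerS θ hθc with hK
  have hKm : ∀ g, g ∈ K ↔ θ g = θ 1 := mem_kerS hθc
  let Z : Subgroup R := (Subgroup.center (R ⧸ K)).comap (QuotientGroup.mk' K)
  have hZn : Z.Normal := inferInstance
  have hZm : ∀ g, g ∈ Z ↔ ∀ h : R, θ ⁅g, h⁆ = θ 1 := by
    intro g
    rw [Subgroup.mem_comap, Subgroup.mem_center_iff]
    constructor
    · intro h x
      have h2 := h (QuotientGroup.mk x)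
      rw [← hKm, ← QuotientGroup.eq_one_iff]
      have h3 : ((⁅g, x⁆ : R) : R ⧸ K) = (QuotientGroup.mk' K g * QuotientGroup.mk x) * (QuotientGroup.mk' K g)⁻¹ * (QuotientGroup.mk x : R ⧸ K)⁻¹ := by
        rw [commutatorElement_def]; rfl
      rw [h3, ← h2]; group
    · intro h x
      obtain ⟨x, rfl⟩ := QuotientGroup.mk_surjective x
      have h2 := (hKm _).2 (h x)
      rw [← QuotientGroup.eq_one_iff] at h2
      have h3 : ((⁅g, x⁆ : R) : R ⧸ K) = (QuotientGroup.mk' K g * QuotientGroup.mk x) * ((QuotientGroup.mk x : R ⧸ K) * (QuotientGroup.mk' K g))⁻¹ := by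
        rw [commutatorElement_def, mul_inv_rev, ← mul_assoc]; rfl
      rw [h3, mul_inv_eq_one] at h2
      exact h2.symm
  have hcen : ∀ g h : R, ⁅g, h⁆ ∈ Subgroup.center R := by
    intro g h
    rw [Subgroup.mem_center_iff]
    intro x
    apply Subtype.ext
    exact (hcl g g.2 h h.2 x x.2).symm
  have hvan : ∀ g, g ∉ Z → θ g = 0 := by
    intro g hg
    rw [hZm] at hg
    push Not at hg
    obtain ⟨h, hh⟩ := hg
    obtain ⟨c, -, hc⟩ := Cfsg.Agent.H3.CharInt.IsIrr.central hθ (hcen g h)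
    have hc1 : c ≠ 1 := by
      intro h'
      apply hh
      have := hc 1
      rw [one_mul, h', one_mul] at this
      exact this
    have e1 : θ g = θ (g * ⁅g, h⁆⁻¹) := by
      have h2 := IsIrr.isClass hθ g h
      rw [← h2]
      congr 1
      have h3 := Subgroup.mem_center_iff.1 (Subgroup.inv_mem _ (hcen g h)) g
      rw [h3, commutatorElement_def]; group
    have e2 : θ g = c * θ (g * ⁅g, h⁆⁻¹) := by
      rw [← hc, inv_mul_cancel_right]
    rw [← e1] at e2
    have e3 : (c - 1) * θ g = 0 := by rw [sub_mul, one_mul, ← e2, sub_self]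
    exact (mul_eq_zero.1 e3).resolve_left (sub_ne_zero.2 hc1)
  -- invariance of Z
  have hcomfix : ∀ (y : P) (a b : R), al hn y ⁅a, b⁆ = ⁅a, b⁆ := by
    intro y a b
    apply Subtype.ext
    rw [al_coe]
    have := hclP a a.2 b b.2 y y.2
    have h2 : ((⁅a, b⁆ : R) : G) = ⁅(a : G), (b : G)⁆ := rfl
    rw [h2, ← this]; group
  have hZinv : ∀ (y : P) (g : R), g ∈ Z → al hn y g ∈ Z := by
    intro y g hg
    rw [hZm] at hg ⊢
    intro h
    have h2 : ⁅al hn y g, h⁆ = ⁅g, al hn y⁻¹ h⁆ := by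
      rw [← hcomfix y g (al hn y⁻¹ h), map_commutatorElement, al_inv']
    rw [h2]; exact hg _
  -- centralized elements are central
  have hfixcen : ∀ c : R, (∀ y ∈ P, y * (c : G) = c * y) → c ∈ Z := by
    intro c hc
    rw [hZm]
    intro h
    have h2 := cent_of_fixed hcomm hcl hclP c.2 hc h h.2
    have h3 : ⁅c, h⁆ = 1 := by
      rw [commutatorElement_eq_one_iff_mul_comm]
      exact Subtype.ext h2
    rw [h3]
  -- Z ≠ R
  obtain ⟨k, hk⟩ : ∃ k, k ∉ Z := by
    by_contra hcon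
    push Not at hcon
    apply h1
    apply Cfsg.Agent.H3.Extraspecial.one_of_commutator hθ
    have h2 : commutator R ≤ K := by
      rw [commutator_def, Subgroup.commutator_le]
      intro a _ b _
      rw [hKm]
      exact (hZm a).1 (hcon a) b
    intro z hz
    exact (hKm z).1 (h2 hz)
  -- semiregular action
  have hcount : Nat.card P + 1 ≤ Z.index := by
    haveI : Fintype P := Fintype.ofFinite _
    let F : Option P → R ⧸ Z := fun o => match o with
      | none => 1
      | some y => QuotientGroup.mk (al hn y k)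
    have hF : Function.Injective F := by
      have hkey : ∀ y y' : P, (QuotientGroup.mk (al hn y k) : R ⧸ Z) = QuotientGroup.mk (al hn y' k) → y = y' := by
        intro y y' h
        by_contra hne
        rw [QuotientGroup.eq] at h
        have h2 := hZinv y⁻¹ _ h
        rw [map_mul, map_inv, al_inv, ← al_mul] at h2
        have hx : y⁻¹ * y' ≠ 1 := by
          intro h'; exact hne (inv_mul_eq_one.1 h')
        have h3 : al hn (y⁻¹ * y') k * k⁻¹ ∈ Z := by
          have := hZn.conj_mem _ h2 k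
          have e : k * (k⁻¹ * al hn (y⁻¹ * y') k) * k⁻¹ = al hn (y⁻¹ * y') k * k⁻¹ := by group
          rwa [e] at this
        obtain ⟨c, hc, hkc⟩ := exists_fixed hn hcop hs hTI Z (y⁻¹ * y') hx (fun n hn' => hZinv _ n hn') k h3
        apply hk
        have h4 : k = c * (k⁻¹ * c)⁻¹ := by group
        rw [h4]
        exact Z.mul_mem (hfixcen c hc) (Z.inv_mem hkc)
      have hne1 : ∀ y : P, (QuotientGroup.mk (al hn y k) : R ⧸ Z) ≠ 1 := by
        intro y h
        rw [QuotientGroup.eq_one_iff] at h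
        have h2 := hZinv y⁻¹ _ h
        rw [al_inv] at h2
        exact hk h2
      intro o o' h
      match o, o' with
      | none, none => rfl
      | none, some y => exact absurd h.symm (hne1 y)
      | some y, none => exact absurd h (hne1 y)
      | some y, some y' => rw [hkey y y' h]
    have := Nat.card_le_card_of_injective F hF
    rw [Nat.card_eq_fintype_card (α := Option P), Fintype.card_option, ← Nat.card_eq_fintype_card] at this
    exact this
  -- index bound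
  have hidx : Z.index ≤ charDegree θ ^ 2 := by
    haveI : Fintype Z := Fintype.ofFinite _
    have hn1 := ci_irr_self hθ
    have h3 : classInner θ θ = (Nat.card R : ℂ)⁻¹ * ∑ g : R, θ g * conj (θ g) := rfl
    rw [h3] at hn1
    have h4 : (Nat.card R : ℂ) ≠ 0 := card_cast_ne_zero
    have h5 : ∑ g : R, θ g * conj (θ g) = (Nat.card R : ℂ) := by
      field_simp at hn1
      exact hn1
    have h6 : ∑ g : R, Complex.normSq (θ g) = (Nat.card R : ℝ) := by
      have : ((∑ g : R, Complex.normSq (θ g) : ℝ) : ℂ) = (Nat.card R : ℂ) := by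
        rw [← h5, Complex.ofReal_sum]
        exact Finset.sum_congr rfl fun g _ => (Complex.mul_conj _).symm
      exact_mod_cast this
    have h7 : ∑ g : R, Complex.normSq (θ g) ≤ ∑ g ∈ Finset.univ.filter (fun g => g ∈ Z), (charDegree θ : ℝ) ^ 2 := by
      rw [Finset.sum_filter]
      refine Finset.sum_le_sum fun g _ => ?_
      split_ifs with hg
      · rw [Complex.normSq_eq_norm_sq]
        have h8 := IsChar.norm_le hθc g
        have h9 : (θ 1).re = (charDegree θ : ℝ) := by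
          have h10 : (charDegree θ : ℂ) = θ 1 := cd_eq ⟨θ, hθ⟩
          rw [← h10]; simp
        rw [h9] at h8
        exact pow_le_pow_left₀ (norm_nonneg _) h8 2
      · rw [hvan g hg]; simp
    rw [h6, Finset.sum_const, nsmul_eq_mul] at h7
    have h8 : (Finset.univ.filter (fun g => g ∈ Z)).card = Nat.card Z := by
      rw [Nat.card_eq_fintype_card, Fintype.card_subtype]
    rw [h8] at h7
    have h9 : Nat.card R ≤ Nat.card Z * charDegree θ ^ 2 := by exact_mod_cast h7
    rw [← Subgroup.card_mul_index Z] at h9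
    exact Nat.le_of_mul_le_mul_left h9 Nat.card_pos
  exact hcount.trans hidx

include hn in
/-- the main bound -/
theorem main_bound [Fintype G] (hcop : (Nat.card P).Coprime (Nat.card R)) (hs : Group.IsSolvable R)
    (hcomm : ⁅R, P⁆ = R)
    (hcl : ∀ a ∈ R, ∀ b ∈ R, ∀ h ∈ R, ⁅a, b⁆ * h = h * ⁅a, b⁆)
    (hclP : ∀ a ∈ R, ∀ b ∈ R, ∀ y ∈ P, ⁅a, b⁆ * y = y * ⁅a, b⁆)
    (hTI : ∀ x ∈ P, x ≠ 1 → ∀ k ∈ R, x * k = k * x → ∀ y ∈ P, y * k = k * y)
    (hP : 1 < Nat.card P) (hR : R ≠ ⊥) {χ : G → ℂ} (hχ : IsCharacter G χ)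
    (hfaith : ∀ g ∈ R, χ g = χ 1 → g = 1) : Nat.card P < charDegree χ ^ 2 := by
  classical
  haveI : Fintype R := Fintype.ofFinite _
  haveI : Fintype (IrrCharacter R) := Fintype.ofFinite _
  have hres : IsCharacter R (fun r : R => χ r) := IsChar.res hχ R
  obtain ⟨n, hn1, hn2⟩ := IsChar.eq_sum_nat hres
  have hχ1 : χ 1 = ∑ ψ : IrrCharacter R, (n ψ : ℂ) * (ψ : R → ℂ) 1 := by
    have := congrFun hn2 1
    rw [Finset.sum_apply] at this
    exact this
  have hdeg : charDegree χ = ∑ ψ : IrrCharacter R, n ψ * charDegree (ψ : R → ℂ) := by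
    have h1 : (charDegree χ : ℂ) = ((∑ ψ : IrrCharacter R, n ψ * charDegree (ψ : R → ℂ) : ℕ) : ℂ) := by
      rw [cd_char_eq hχ, hχ1]
      push_cast
      exact Finset.sum_congr rfl fun ψ _ => by rw [cd_eq]
    exact_mod_cast h1
  -- a nontrivial constituent
  obtain ⟨θ, hθn, hθ1⟩ : ∃ θ : IrrCharacter R, n θ ≠ 0 ∧ (θ : R → ℂ) ≠ fun _ => 1 := by
    by_contra hcon
    push Not at hcon
    apply hR
    rw [eq_bot_iff]
    intro r hr
    rw [Subgroup.mem_bot]
    apply hfaith r hr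
    have h2 := congrFun hn2 ⟨r, hr⟩
    rw [Finset.sum_apply] at h2
    rw [hχ1]
    refine h2.trans ?_
    refine Finset.sum_congr rfl fun ψ _ => ?_
    rw [Pi.smul_apply, smul_eq_mul]
    by_cases h0 : n ψ = 0
    · rw [h0]; simp
    · rw [hcon ψ h0]
  have hle : charDegree (θ : R → ℂ) ≤ charDegree χ := by
    rw [hdeg]
    refine le_trans ?_ (Finset.single_le_sum (fun _ _ => Nat.zero_le _) (Finset.mem_univ θ))
    exact Nat.le_mul_of_pos_left _ (Nat.pos_of_ne_zero hθn)
  by_cases hlin : (θ : R → ℂ) 1 = 1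
  · obtain ⟨lam, hlam⟩ := IsChar.hom_units_of_one (IsIrr.isCharacter θ.2) hlin
    haveI : Fintype P := Fintype.ofFinite _
    -- conjugates
    let T : P → IrrCharacter R := fun y => ⟨fun r => (lam.comp (al hn y).toMonoidHom) r, isIrr_of_hom_units _⟩
    have hTv : ∀ y r, (T y : R → ℂ) r = (lam (al hn y r) : ℂ) := fun _ _ => rfl
    have hTinj : Function.Injective T := by
      intro y y' h
      by_contra hne
      have h2 : ∀ r, lam (al hn y r) = lam (al hn y' r) := by
        intro r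
        apply Units.ext
        exact congrFun (congrArg Subtype.val h) r
      have h3 : ∀ r, lam (al hn (y' * y⁻¹) r) = lam r := by
        intro r
        rw [al_mul, ← h2, al_inv']
      have h4 := linear_trivial hn hcop hs hcomm hTI lam (y' * y⁻¹) (by
        intro h'; exact hne (mul_inv_eq_one.1 h').symm) h3
      apply hθ1
      funext r
      rw [hlam, h4]; simp
    have hTn : ∀ y, n (T y) ≠ 0 := by
      intro y h0
      have h2 := hn1 (T y)
      rw [h0, Nat.cast_zero] at h2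
      have h3 : classInner (fun r : R => χ r) (T y : R → ℂ) = classInner (fun r : R => χ r) (θ : R → ℂ) := by
        have e1 : classInner (fun r : R => χ r) (T y : R → ℂ) = (Nat.card R : ℂ)⁻¹ * ∑ r : R, χ r * conj ((T y : R → ℂ) r) := rfl
        have e2 : classInner (fun r : R => χ r) (θ : R → ℂ) = (Nat.card R : ℂ)⁻¹ * ∑ r : R, χ r * conj ((θ : R → ℂ) r) := rfl
        rw [e1, e2]
        congr 1
        rw [← Equiv.sum_comp (al hn y).toEquiv (fun r : R => χ r * conj ((θ : R → ℂ) r))]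
        refine Finset.sum_congr rfl fun r _ => ?_
        have e3 : χ ((al hn y).toEquiv r : R) = χ r := by
          have := IsChar.isClass hχ (r : G) (y : G)
          exact this
        rw [e3, hlam]
        rfl
      rw [h3, hn1] at h2
      exact hθn (by exact_mod_cast h2)
    have h5 : Nat.card P ≤ charDegree χ := by
      rw [hdeg, Nat.card_eq_fintype_card]
      have h6 : Fintype.card P = ∑ ψ ∈ Finset.univ.image T, 1 := by
        rw [Finset.sum_const, smul_eq_mul, mul_one, Finset.card_image_of_injective _ hTinj, Finset.card_univ]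
      rw [h6]
      refine (Finset.sum_le_sum (fun ψ hψ => ?_)).trans (Finset.sum_le_sum_of_subset (Finset.subset_univ _))
      obtain ⟨y, _, rfl⟩ := Finset.mem_image.1 hψ
      exact Nat.mul_pos (Nat.pos_of_ne_zero (hTn y)) (cd_pos _)
    nlinarith
  · have h2 := nonlinear_bound hn hcop hs hcomm hcl hclP hTI θ.2 hlin
    have h3 : charDegree (θ : R → ℂ) ^ 2 ≤ charDegree χ ^ 2 := Nat.pow_le_pow_left hle 2
    omega

end Cfsg.Agent.H26.TIAct
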