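import Mathlib
import Cfsg.Prelude.Def_FusionComponents
import Cfsg.Agent.H27_FusAb

set_option autoImplicit false
set_option linter.unusedVariables false
set_option linter.unusedSectionVars false
set_option linter.style.longLine false

namespace Cfsg.Agent.H27.Fus
open Cfsg Cfsg.FusionSystem Cfsg.Agent.H27.Grp

section
variable {Ω : Type*} [Group Ω] {S : Subgroup Ω}

/-- elements of order dividing `p` that are `p^j`-th powers -/
def Vs (S : Subgroup Ω) (hab : ∀ x ∈ S, ∀ y ∈ S, x * y = y * x) (p j : ℕ) : Subgroup Ω where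
  carrier := {x | x ∈ S ∧ x ^ p = 1 ∧ ∃ y ∈ S, y ^ (p ^ j) = x}
  mul_mem' := by
    rintro a b ⟨h1, h2, y, hy, h3⟩ ⟨h4, h5, z, hz, h6⟩
    refine ⟨S.mul_mem h1 h4, ?_, y * z, S.mul_mem hy hz, ?_⟩
    · rw [(show Commute a b from hab a h1 b h4).mul_pow, h2, h5, one_mul]
    · rw [(show Commute y z from hab y hy z hz).mul_pow, h3, h6]
  one_mem' := ⟨S.one_mem, one_pow _, 1, S.one_mem, one_pow _⟩
  inv_mem' := by
    rintro a ⟨h1, h2, y, hy, h3⟩
    exact ⟨S.inv_mem h1, by rw [inv_pow, h2, inv_one], y⁻¹, S.inv_mem hy, by rw [inv_pow, h3]⟩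

theorem mem_Vs {hab : ∀ x ∈ S, ∀ y ∈ S, x * y = y * x} {p j : ℕ} {x : Ω} :
    x ∈ Vs S hab p j ↔ x ∈ S ∧ x ^ p = 1 ∧ ∃ y ∈ S, y ^ (p ^ j) = x := Iff.rfl

def Om (S : Subgroup Ω) (hab : ∀ x ∈ S, ∀ y ∈ S, x * y = y * x) (m : ℕ) : Subgroup Ω where
  carrier := {x | x ∈ S ∧ x ^ m = 1}
  mul_mem' := by
    rintro a b ⟨h1, h2⟩ ⟨h4, h5⟩
    refine ⟨S.mul_mem h1 h4, ?_⟩
    rw [(show Commute a b from hab a h1 b h4).mul_pow, h2, h5, one_mul]
  one_mem' := ⟨S.one_mem, one_pow _⟩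
  inv_mem' := by
    rintro a ⟨h1, h2⟩
    exact ⟨S.inv_mem h1, by rw [inv_pow, h2, inv_one]⟩

theorem mem_Om {hab : ∀ x ∈ S, ∀ y ∈ S, x * y = y * x} {m : ℕ} {x : Ω} :
    x ∈ Om S hab m ↔ x ∈ S ∧ x ^ m = 1 := Iff.rfl

theorem Vs_anti {hab : ∀ x ∈ S, ∀ y ∈ S, x * y = y * x} {p j : ℕ} : Vs S hab p (j + 1) ≤ Vs S hab p j := by
  rintro x ⟨h1, h2, y, hy, h3⟩
  refine ⟨h1, h2, y ^ p, S.pow_mem hy _, ?_⟩
  rw [← pow_mul, ← pow_succ', h3]

theorem Vs_aut {hab : ∀ x ∈ S, ∀ y ∈ S, x * y = y * x} {p j : ℕ} (α : MulAut S) (x : S)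
    (hx : (x : Ω) ∈ Vs S hab p j) : (α x : Ω) ∈ Vs S hab p j := by
  obtain ⟨h1, h2, y, hy, h3⟩ := hx
  have e2 : x ^ p = 1 := Subtype.ext h2
  have e3 : (⟨y, hy⟩ : S) ^ (p ^ j) = x := Subtype.ext h3
  refine ⟨(α x).2, ?_, α ⟨y, hy⟩, (α _).2, ?_⟩
  · have := congrArg α e2
    rw [map_pow, map_one] at this
    exact congrArg Subtype.val this
  · have := congrArg α e3
    rw [map_pow] at this
    exact congrArg Subtype.val this

theorem pow_two_of_V [Finite S] (hS : IsPGroup 2 S) (hab : ∀ x ∈ S, ∀ y ∈ S, x * y = y * x) (J : ℕ)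
    (hJ : ∀ x ∈ Vs S hab 2 J, x = 1)
    (hV : ∀ j, ∀ x ∈ Vs S hab 2 j, ∀ y ∈ Vs S hab 2 j, x ∉ Vs S hab 2 (j + 1) → y ∉ Vs S hab 2 (j + 1) →
      x⁻¹ * y ∈ Vs S hab 2 (j + 1)) (α : MulAut S) : ∃ K, α ^ (2 ^ K) = 1 := by
  have := Fact.mk Nat.prime_two
  obtain ⟨n, hn⟩ := exists_pow_card (S := S) hS
  obtain ⟨K, hK⟩ := exists_pow_chain (P := S) (p := 2) ⟨n, hn⟩ (α := α) (fun i => Vs S hab 2 (J - i)) (by
      intro i
      by_cases hi : i < J
      · have : J - i = (J - (i + 1)) + 1 := by omega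
        show Vs S hab 2 (J - i) ≤ Vs S hab 2 (J - (i + 1))
        rw [this]; exact Vs_anti
      · have e1 : J - i = 0 := by omega
        have e2 : J - (i + 1) = 0 := by omega
        show Vs S hab 2 (J - i) ≤ Vs S hab 2 (J - (i + 1))
        rw [e1, e2]) (by
      refine ⟨0, fun x hx => ?_⟩
      have : x = 1 := Subtype.ext (hJ x hx)
      rw [this, map_one]) (by
      intro i x hx
      by_cases hi : i < J
      · have e : J - i = (J - (i + 1)) + 1 := by omega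
        show (x : Ω)⁻¹ * α x ∈ Vs S hab 2 (J - i)
        rw [e]
        by_cases hx' : (x : Ω) ∈ Vs S hab 2 (J - (i + 1) + 1)
        · exact mul_mem (inv_mem hx') (Vs_aut α x hx')
        · refine hV _ _ hx _ (Vs_aut α x hx) hx' fun hn => hx' ?_
          have := Vs_aut α⁻¹ (α x) hn
          rwa [MulAut.inv_apply_self] at this
      · have e1 : J - i = 0 := by omega
        have e2 : J - (i + 1) = 0 := by omega
        show (x : Ω)⁻¹ * α x ∈ Vs S hab 2 (J - i)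
        have hx' : (x : Ω) ∈ Vs S hab 2 (J - (i + 1)) := hx
        rw [e2] at hx'
        rw [e1]
        exact mul_mem (inv_mem hx') (Vs_aut α x hx')) J
  rw [Nat.sub_self] at hK
  obtain ⟨K', hK'⟩ := exists_pow_chain (P := S) (p := 2) ⟨n, hn⟩ (α := α ^ (2 ^ K)) (fun i => Om S hab (2 ^ (i + 1))) (by
      rintro i x ⟨h1, h2⟩
      refine ⟨h1, ?_⟩
      rw [pow_succ 2 (i + 1), pow_mul, h2, one_pow]) (by
      refine ⟨0, fun x hx => ?_⟩
      have h2 : (x : Ω) ^ 2 = 1 := by simpa using hx.2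
      rw [pow_zero, pow_one]
      exact hK x ⟨x.2, h2, x, x.2, by simp⟩) (by
      intro i x hx
      have h2 : (x : Ω) ^ (2 ^ (i + 1 + 1)) = 1 := hx.2
      have h3 : (α ^ (2 ^ K)) (x ^ (2 ^ (i + 1))) = x ^ (2 ^ (i + 1)) := by
        apply hK
        refine ⟨(x ^ (2 ^ (i + 1))).2, ?_, x ^ (2 ^ (i + 1)), S.pow_mem x.2 _, by simp⟩
        show ((x : Ω) ^ (2 ^ (i + 1))) ^ 2 = 1
        rw [← pow_mul, ← pow_succ, h2]
      refine ⟨S.mul_mem (S.inv_mem x.2) (Subtype.coe_prop _), ?_⟩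
      have hc : Commute ((x : Ω)⁻¹) (((α ^ (2 ^ K)) x : S) : Ω) := hab _ (S.inv_mem x.2) _ (Subtype.coe_prop _)
      rw [hc.mul_pow, inv_pow]
      rw [map_pow] at h3
      have h4 := congrArg Subtype.val h3
      rw [inv_mul_eq_one]
      exact h4.symm) n
  refine ⟨K + K', ?_⟩
  rw [pow_add, pow_mul]
  refine pow_eq_one_of_forall fun x => hK' x ⟨x.2, ?_⟩
  rw [pow_succ, pow_mul, hn x x.2, one_pow]

end

section zmod

theorem zmod_two {a : ℕ} (ha : 1 ≤ a) {x : ZMod (2 ^ a)} (hx : 2 * x = 0) : x = 0 ∨ x = (2 ^ (a - 1) : ℕ) := by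
  have hne : NeZero (2 ^ a) := ⟨by positivity⟩
  have h1 : ((2 * x.val : ℕ) : ZMod (2 ^ a)) = 0 := by push_cast; rw [ZMod.natCast_zmod_val]; exact hx
  rw [ZMod.natCast_eq_zero_iff] at h1
  have e : 2 ^ a = 2 * 2 ^ (a - 1) := by rw [← pow_succ']; congr 1; omega
  have h2 : 2 ^ (a - 1) ∣ x.val := Nat.dvd_of_mul_dvd_mul_left (by norm_num) ((dvd_of_eq e.symm).trans h1)
  obtain ⟨c, hc⟩ := h2
  have h3 : x.val < 2 ^ a := ZMod.val_lt x
  have h4 : c < 2 := by
    rw [hc, e, mul_comm 2] at h3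
    exact Nat.lt_of_mul_lt_mul_left h3
  interval_cases c
  · left; rw [mul_zero] at hc; exact (ZMod.val_eq_zero x).1 hc
  · right; rw [mul_one] at hc; rw [← hc, ZMod.natCast_zmod_val]

theorem pow_two_distinct {Ω : Type*} [Group Ω] {S : Subgroup Ω} [Finite S] (n : ℕ) (a : Fin n → ℕ) (ha : StrictMono a)
    (ha1 : ∀ i, 1 ≤ a i) (e : ↥S ≃* Multiplicative ((i : Fin n) → ZMod (2 ^ a i))) :
    (∀ x ∈ S, ∀ y ∈ S, x * y = y * x) ∧ IsPGroup 2 S ∧ ∀ α : MulAut S, ∃ K, α ^ (2 ^ K) = 1 := by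
  have hab : ∀ x ∈ S, ∀ y ∈ S, x * y = y * x := by
    intro x hx y hy
    have : (⟨x, hx⟩ : S) * ⟨y, hy⟩ = ⟨y, hy⟩ * ⟨x, hx⟩ := e.injective (by rw [map_mul, map_mul, mul_comm])
    exact congrArg Subtype.val this
  let X : S → (i : Fin n) → ZMod (2 ^ a i) := fun x => Multiplicative.toAdd (e x)
  have hXmul : ∀ x y, X (x * y) = X x + X y := fun x y => by
    show Multiplicative.toAdd (e (x * y)) = _
    rw [map_mul]; rfl
  have hXpow : ∀ x (m : ℕ), X (x ^ m) = m • X x := fun x m => by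
    show Multiplicative.toAdd (e (x ^ m)) = _
    rw [map_pow]; rfl
  have hX1 : X 1 = 0 := by
    show Multiplicative.toAdd (e 1) = _
    rw [map_one]; rfl
  have hXinv : ∀ x, X x⁻¹ = - X x := fun x => by
    show Multiplicative.toAdd (e x⁻¹) = _
    rw [map_inv]; rfl
  have hXinj : ∀ x y, X x = X y → x = y := fun x y h => e.injective (Multiplicative.toAdd.injective h)
  have hXsurj : ∀ v, ∃ x, X x = v := fun v => ⟨e.symm (Multiplicative.ofAdd v), by
    show Multiplicative.toAdd (e (e.symm _)) = v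
    rw [MulEquiv.apply_symm_apply]; rfl⟩
  have hkill : ∀ i (m : ℕ), a i ≤ m → ∀ z : ZMod (2 ^ a i), (2 ^ m) • z = 0 := by
    intro i m hm z
    rw [nsmul_eq_mul]
    have : ((2 ^ m : ℕ) : ZMod (2 ^ a i)) = 0 := by
      rw [ZMod.natCast_eq_zero_iff]; exact pow_dvd_pow 2 hm
    rw [this, zero_mul]
  have hexp : ∀ x : S, x ^ (2 ^ (∑ i, a i)) = 1 := fun x => hXinj _ _ (by
    rw [hXpow, hX1]
    funext i
    show (2 ^ (∑ i, a i)) • X x i = 0
    exact hkill i _ (Finset.single_le_sum (fun _ _ => Nat.zero_le _) (Finset.mem_univ i)) _)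
  have hS : IsPGroup 2 S := fun x => ⟨_, hexp x⟩
  refine ⟨hab, hS, pow_two_of_V hS hab (∑ i, a i) ?_ ?_⟩
  · rintro x ⟨-, -, y, hy, rfl⟩
    exact congrArg Subtype.val (hexp ⟨y, hy⟩)
  · -- coordinates
    have hcoord : ∀ j, ∀ x : S, (x : Ω) ∈ Vs S hab 2 j → (∀ i, 2 * X x i = 0) ∧ ∀ i, a i ≤ j → X x i = 0 := by
      rintro j x ⟨-, h2, y, hy, h3⟩
      have e2 : x ^ 2 = 1 := Subtype.ext h2
      have e3 : (⟨y, hy⟩ : S) ^ (2 ^ j) = x := Subtype.ext h3
      constructor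
      · intro i
        have := congrFun (congrArg X e2) i
        rw [hXpow, hX1] at this
        simpa [two_mul, two_nsmul] using this
      · intro i hi
        rw [← e3, hXpow]
        exact hkill i j hi _
    have hmem : ∀ j, ∀ x : S, (x : Ω) ∈ Vs S hab 2 j → (∀ i, a i = j + 1 → X x i = 0) → (x : Ω) ∈ Vs S hab 2 (j + 1) := by
      intro j x hx h
      obtain ⟨h1, h2⟩ := hcoord j x hx
      have hex : ∀ i, ∃ z : ZMod (2 ^ a i), (2 ^ (j + 1)) • z = X x i := by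
        intro i
        by_cases hi : a i ≤ j + 1
        · refine ⟨0, ?_⟩
          rw [smul_zero]
          rcases Nat.lt_or_eq_of_le hi with h3 | h3
          · exact (h2 i (by omega)).symm
          · exact (h i h3).symm
        · rcases zmod_two (ha1 i) (h1 i) with h3 | h3
          · exact ⟨0, by rw [smul_zero, h3]⟩
          · refine ⟨((2 ^ (a i - 1 - (j + 1)) : ℕ) : ZMod (2 ^ a i)), ?_⟩
            rw [h3, nsmul_eq_mul, ← Nat.cast_mul, ← pow_add]
            congr 2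
            omega
      choose z hz using hex
      obtain ⟨y, hy⟩ := hXsurj z
      refine ⟨x.2, hx.2.1, y, y.2, ?_⟩
      have : y ^ (2 ^ (j + 1)) = x := hXinj _ _ (by
        rw [hXpow, hy]
        funext i
        exact hz i)
      exact congrArg Subtype.val this
    intro j x hx y hy hnx hny
    have hxS := hx.1
    have hyS := hy.1
    have key : ∀ u : S, (u : Ω) ∈ Vs S hab 2 j → (u : Ω) ∉ Vs S hab 2 (j + 1) →
        ∃ i, a i = j + 1 ∧ X u i = (2 ^ (a i - 1) : ℕ) := by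
      intro u hu hn
      by_contra hcon
      push Not at hcon
      refine hn (hmem j u hu fun i hi => ?_)
      rcases zmod_two (ha1 i) ((hcoord j u hu).1 i) with h3 | h3
      · exact h3
      · exact absurd h3 (hcon i hi)
    obtain ⟨i, hi, hxi⟩ := key ⟨x, hxS⟩ hx hnx
    obtain ⟨i', hi', hyi⟩ := key ⟨y, hyS⟩ hy hny
    have hii : i = i' := ha.injective (hi.trans hi'.symm)
    subst hii
    refine hmem j ((⟨x, hxS⟩ : S)⁻¹ * ⟨y, hyS⟩) (mul_mem (inv_mem hx) hy) fun k hk => ?_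
    have : k = i := ha.injective (hk.trans hi.symm)
    subst this
    rw [hXmul, hXinv]
    show - X ⟨x, hxS⟩ k + X ⟨y, hyS⟩ k = 0
    rw [hxi, hyi, neg_add_cancel]

end zmod

end Cfsg.Agent.H27.Fus
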