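import Mathlib
import Cfsg.Agent.H27_Grp2
import Cfsg.Agent.H27_Pro
import Cfsg.Agent.H2_MetaAct

set_option autoImplicit false
set_option linter.all false
open Cfsg

namespace Cfsg.Agent.H27.Bgp

open Cfsg.Agent.H27.Grp Cfsg.Agent.H27.Pro

lemma cyc_le {C : Type*} [Group C] [Finite C] [IsCyclic C] (X Y : Subgroup C)
    (h : Nat.card X ∣ Nat.card Y) : X ≤ Y := by
  classical
  haveI : Fintype C := Fintype.ofFinite C
  have h1 : (Finset.univ.filter (fun a : C => a ^ (Nat.card Y) = 1)).card ≤ Nat.card Y :=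
    IsCyclic.card_pow_eq_one_le Nat.card_pos
  have h2 : (Finset.univ.filter (fun a : C => a ∈ Y)) ⊆
      (Finset.univ.filter (fun a : C => a ^ (Nat.card Y) = 1)) := by
    intro a ha
    rw [Finset.mem_filter] at ha ⊢
    refine ⟨Finset.mem_univ _, ?_⟩
    have := pow_card_eq_one' (G := Y) (x := ⟨a, ha.2⟩)
    exact congrArg Subtype.val this
  have h3 : (Finset.univ.filter (fun a : C => a ∈ Y)).card = Nat.card Y := by
    rw [Nat.card_eq_fintype_card, Fintype.card_subtype]
  have h4 := Finset.eq_of_subset_of_card_le h2 (by rw [h3]; exact h1)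
  intro x hx
  have h5 : x ∈ (Finset.univ.filter (fun a : C => a ^ (Nat.card Y) = 1)) := by
    rw [Finset.mem_filter]
    refine ⟨Finset.mem_univ _, ?_⟩
    obtain ⟨k, hk⟩ := h
    have := pow_card_eq_one' (G := X) (x := ⟨x, hx⟩)
    have h6 : x ^ Nat.card X = 1 := congrArg Subtype.val this
    rw [hk, pow_mul, h6, one_pow]
  rw [← h4, Finset.mem_filter] at h5
  exact h5.2

lemma cyc_chain {G : Type*} [Group G] [Finite G] {p : ℕ} [Fact p.Prime] {Q : Subgroup G}
    (hQ : IsPGroup p Q) (hc : IsCyclic Q) {X Y : Subgroup G} (hX : X ≤ Q) (hY : Y ≤ Q) :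
    X ≤ Y ∨ Y ≤ X := by
  obtain ⟨n, hn⟩ := IsPGroup.iff_card.mp (hQ.to_le hX)
  obtain ⟨m, hm⟩ := IsPGroup.iff_card.mp (hQ.to_le hY)
  have cX : Nat.card (X.subgroupOf Q) = Nat.card X :=
    Nat.card_congr (Subgroup.subgroupOfEquivOfLe hX).toEquiv
  have cY : Nat.card (Y.subgroupOf Q) = Nat.card Y :=
    Nat.card_congr (Subgroup.subgroupOfEquivOfLe hY).toEquiv
  rcases le_total n m with h | h
  · left
    have := cyc_le (X.subgroupOf Q) (Y.subgroupOf Q) (by rw [cX, cY, hn, hm]; exact pow_dvd_pow p h)
    intro x hx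
    exact this (x := ⟨x, hX hx⟩) hx
  · right
    have := cyc_le (Y.subgroupOf Q) (X.subgroupOf Q) (by rw [cX, cY, hn, hm]; exact pow_dvd_pow p h)
    intro x hx
    exact this (x := ⟨x, hY hx⟩) hx

variable {G : Type*} [Group G] [Finite G]

lemma comm_of_zpowers (y : G) : IsMulCommutative ↥(Subgroup.zpowers y) := by
  infer_instance

/-- In a group where abelian subgroups of equal order are conjugate, a prime dividing `|M|` and `|G/M|`
(`M` normal of odd order) has cyclic Sylow subgroups -/
theorem cyc_sylow (hB : ∀ A B : Subgroup G, IsMulCommutative ↥A → IsMulCommutative ↥B →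
      Nat.card ↥A = Nat.card ↥B → ∃ g : G, B = A.map (MulAut.conj g).toMonoidHom)
    (M : Subgroup G) [hMn : M.Normal] {p : ℕ} [hp : Fact p.Prime] (hp2 : p ≠ 2)
    (hpM : p ∣ Nat.card M) (hpi : p ∣ M.index) (Q : Sylow p G) : IsCyclic (Q : Subgroup G) := by
  by_contra hnc
  obtain ⟨E, hEQ, hE1, hEc⟩ := Cfsg.Agent.H2.MetaAct.exists_ea hp2 Q.2 hnc
  have hEcomm : IsMulCommutative ↥E := by
    have h1 : ∀ a b : E, a * b = b * a := IsPGroup.commutative_of_card_eq_prime_sq hEc
    exact ⟨⟨h1⟩⟩
  -- no elements of order p^2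
  have hexp : ∀ y : G, orderOf y ≠ p ^ 2 := by
    intro y hy
    obtain ⟨g, hg⟩ := hB E (Subgroup.zpowers y) hEcomm (comm_of_zpowers y)
      (by rw [hEc, Nat.card_zpowers, hy])
    have h1 : y ∈ E.map (MulAut.conj g).toMonoidHom := by rw [← hg]; exact Subgroup.mem_zpowers y
    obtain ⟨e, he, hey⟩ := h1
    have h2 : y ^ p = 1 := by
      rw [← hey, ← map_pow, hE1 e he, map_one]
    have h3 := orderOf_dvd_of_pow_eq_one h2
    rw [hy] at h3
    have h4 := Nat.le_of_dvd hp.out.pos h3
    have h5 := hp.out.one_lt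
    nlinarith
  have hQexp : ∀ y ∈ (Q : Subgroup G), y ^ p = 1 := by
    intro y hy
    obtain ⟨k, hk⟩ := (IsPGroup.iff_orderOf.mp Q.2) ⟨y, hy⟩
    rw [Subgroup.orderOf_mk] at hk
    rcases Nat.lt_or_ge k 2 with h | h
    · apply orderOf_dvd_iff_pow_eq_one.mp
      rw [hk]
      interval_cases k
      · simp
      · simp
    · exfalso
      apply hexp (y ^ (p ^ (k - 2)))
      rw [orderOf_pow' _ (pow_ne_zero _ hp.out.ne_zero), hk]
      have h1 : p ^ k = p ^ (k - 2) * p ^ 2 := by rw [← pow_add]; congr 1; omega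
      rw [h1, Nat.gcd_eq_right (Dvd.intro _ rfl), Nat.mul_div_cancel_left _ (pow_pos hp.out.pos _)]
  obtain ⟨m, hm⟩ := exists_prime_orderOf_dvd_card' (G := M) p hpM
  have hmo : orderOf (m : G) = p := by rw [Subgroup.orderOf_coe, hm]
  have hQM : (Q : Subgroup G) ≤ M := by
    intro x hx
    by_cases hx1 : x = 1
    · rw [hx1]; exact M.one_mem
    · have hxo : orderOf x = p := orderOf_eq_prime (hQexp x hx) hx1
      obtain ⟨g, hg⟩ := hB (Subgroup.zpowers (m : G)) (Subgroup.zpowers x) (comm_of_zpowers _)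
        (comm_of_zpowers x) (by rw [Nat.card_zpowers, Nat.card_zpowers, hmo, hxo])
      have h1 : x ∈ (Subgroup.zpowers (m : G)).map (MulAut.conj g).toMonoidHom := by
        rw [← hg]; exact Subgroup.mem_zpowers x
      obtain ⟨e, he, hey⟩ := h1
      have heM : e ∈ M := by
        have : Subgroup.zpowers (m : G) ≤ M := by rw [Subgroup.zpowers_le]; exact m.2
        exact this he
      rw [← hey]
      exact hMn.conj_mem e heM g
  have h1 := Q.not_dvd_index
  exact h1 (hpi.trans (Subgroup.index_dvd_of_le hQM))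

/-- abelian supplement -/
theorem supp (hB : ∀ A B : Subgroup G, IsMulCommutative ↥A → IsMulCommutative ↥B →
      Nat.card ↥A = Nat.card ↥B → ∃ g : G, B = A.map (MulAut.conj g).toMonoidHom)
    (M : Subgroup G) [hMn : M.Normal] (hM : Odd (Nat.card M)) (A : Subgroup G) (hMA : M ≤ A)
    (hab : ∀ x ∈ A, ∀ y ∈ A, x * y * x⁻¹ * y⁻¹ ∈ M) :
    ∃ A0 : Subgroup G, A0 ⊔ M = A ∧ IsMulCommutative ↥A0 ∧
      ∀ p : ℕ, p.Prime → (Nat.card ↥(A0 ⊓ M)).factorization p =
        if p ∣ M.relIndex A then (Nat.card M).factorization p else 0 := by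
  classical
  -- a minimal supplement
  obtain ⟨A0, hA0, hmin⟩ := (Set.toFinite {X : Subgroup G | X ⊔ M = A}).exists_minimal
    ⟨A, by rw [Set.mem_setOf_eq, sup_eq_left.mpr hMA]⟩
  rw [Set.mem_setOf_eq] at hA0
  have hA0A : A0 ≤ A := by rw [← hA0]; exact le_sup_left
  have hmin' : ∀ X : Subgroup G, X ≤ A0 → X ⊔ M = A → X = A0 := by
    intro X hX hXM
    exact le_antisymm hX (hmin hXM hX)
  set D := M.subgroupOf A0 with hD
  -- derived subgroup in D
  have hcomm : ∀ x y : A0, x * y * x⁻¹ * y⁻¹ ∈ D := fun x y => hab x (hA0A x.2) y (hA0A y.2)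
  -- a subgroup X' of A0 with X' ⊔ D = ⊤ is ⊤
  have hfrat : ∀ X' : Subgroup A0, X' ⊔ D = ⊤ → X' = ⊤ := by
    intro X' hX'
    have h1 : X'.map A0.subtype ⊔ M = A := by
      apply le_antisymm
      · exact sup_le ((Subgroup.map_subtype_le X').trans hA0A) hMA
      · rw [← hA0]
        apply sup_le _ le_sup_right
        have h2 : (X' ⊔ D).map A0.subtype = A0 := by
          rw [hX', ← MonoidHom.range_eq_map, Subgroup.range_subtype]
        calc A0 = (X' ⊔ D).map A0.subtype := h2.symm
          _ = X'.map A0.subtype ⊔ D.map A0.subtype := Subgroup.map_sup _ _ _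
          _ ≤ X'.map A0.subtype ⊔ M := by
            apply sup_le_sup le_rfl
            rw [hD, Subgroup.subgroupOf_map_subtype]
            exact inf_le_left
    have h3 := hmin' _ (Subgroup.map_subtype_le X') h1
    apply Subgroup.map_injective A0.subtype_injective
    rw [h3, ← MonoidHom.range_eq_map, Subgroup.range_subtype]
  have hnil : Group.IsNilpotent A0 := by
    refine ((Group.isNilpotent_of_finite_tfae (G := A0)).out 0 2).mpr ?_
    intro X' hX'
    have hDX : D ≤ X' := by
      by_contra hcon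
      have h1 : X' ⊔ D = ⊤ := by
        apply hX'.2
        refine lt_of_le_of_ne le_sup_left ?_
        intro h2
        apply hcon
        rw [h2]
        exact le_sup_right
      exact hX'.1 (hfrat X' h1)
    constructor
    intro n hn g
    have h1 : g * n * g⁻¹ = (g * n * g⁻¹ * n⁻¹) * n := by group
    rw [h1]
    exact X'.mul_mem (hDX (hcomm g n)) hn
  have hidx : D.index = M.relIndex A := by
    have h1 : M.relIndex A0 = M.relIndex A := by
      rw [← hA0, Subgroup.relIndex_sup_right]
    exact h1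
  -- primes not dividing the index
  have hnp : ∀ p : ℕ, p.Prime → ¬ p ∣ M.relIndex A → ¬ p ∣ Nat.card A0 := by
    intro p hp hpi hpA
    haveI : Fact p.Prime := ⟨hp⟩
    obtain ⟨P⟩ : Nonempty (Sylow p A0) := inferInstance
    haveI hPn : (P : Subgroup A0).Normal := (Group.isNilpotent_of_finite_tfae.out 0 3 rfl rfl |>.mp hnil) p ‹_› P
    have hPD : (P : Subgroup A0) ≤ D := by
      intro x hx
      have hcop : Nat.Coprime (Nat.card (P : Subgroup A0)) D.index := by
        obtain ⟨n, hn⟩ := IsPGroup.iff_card.mp P.2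
        rw [hn, hidx]
        exact Nat.Coprime.pow_left n ((Nat.Prime.coprime_iff_not_dvd hp).mpr hpi)
      haveI hDn : D.Normal := by rw [hD]; infer_instance
      have h1 : (x ^ D.index) ∈ D := Subgroup.pow_index_mem D x
      have h2 : (x ^ Nat.card (P : Subgroup A0)) = 1 := by
        have := pow_card_eq_one' (G := (P : Subgroup A0)) (x := ⟨x, hx⟩)
        exact congrArg Subtype.val this
      have h3 : (QuotientGroup.mk x : A0 ⧸ D) = 1 := by
        have e1 : (QuotientGroup.mk x : A0 ⧸ D) ^ D.index = 1 := by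
          rw [← QuotientGroup.mk_pow, QuotientGroup.eq_one_iff]; exact h1
        have e2 : (QuotientGroup.mk x : A0 ⧸ D) ^ Nat.card (P : Subgroup A0) = 1 := by
          rw [← QuotientGroup.mk_pow, h2, QuotientGroup.mk_one]
        have e3 := Nat.dvd_gcd (orderOf_dvd_of_pow_eq_one e2) (orderOf_dvd_of_pow_eq_one e1)
        rw [hcop.gcd_eq_one, Nat.dvd_one, orderOf_eq_one_iff] at e3
        exact e3
      rwa [QuotientGroup.eq_one_iff] at h3
    obtain ⟨X', hX'⟩ := Subgroup.exists_right_complement'_of_coprime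
      (N := (P : Subgroup A0)) P.card_coprime_index
    have h1 : X' ⊔ D = ⊤ := by
      apply top_le_iff.mp
      rw [← hX'.sup_eq_top, sup_comm]
      exact sup_le_sup le_rfl hPD
    have h2 := hfrat X' h1
    have h3 : (P : Subgroup A0) = ⊥ := by
      have := hX'.disjoint
      rw [h2, disjoint_top] at this
      exact this
    have h4 := P.not_dvd_index
    rw [h3, Subgroup.index_bot] at h4
    exact h4 hpA
  have hcardD : Nat.card D = Nat.card ↥(A0 ⊓ M) := by
    have h1 : Nat.card (D.map A0.subtype) = Nat.card D :=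
      (Nat.card_congr (D.equivMapOfInjective A0.subtype A0.subtype_injective).toEquiv).symm
    rw [← h1, hD, Subgroup.subgroupOf_map_subtype, inf_comm]
  -- the case of a prime dividing both
  have hboth : ∀ p : ℕ, p.Prime → p ∣ M.relIndex A → p ∣ Nat.card M → ∀ PG : Subgroup G,
      IsSyl p PG A0 → IsCyclic PG ∧ (Nat.card M).factorization p ≤ (Nat.card ↥(A0 ⊓ M)).factorization p := by
    intro p hp hpi hpM PG hPG
    haveI : Fact p.Prime := ⟨hp⟩
    have hp2 : p ≠ 2 := by
      rintro rfl
      rcases hM with ⟨k, hk⟩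
      omega
    have hpG : p ∣ M.index := hpi.trans (Subgroup.relIndex_dvd_index_of_normal M A)
    obtain ⟨Q, hQ⟩ := hPG.2.1.exists_le_sylow
    have hcyc := cyc_sylow hB M hp2 hpM hpG Q
    have hQs : IsSyl p (Q : Subgroup G) ⊤ := isSyl_top_iff.mpr ⟨Q, rfl⟩
    have hQM : IsSyl p ((Q : Subgroup G) ⊓ M) M :=
      hQs.inf le_top (by intro x _; rw [mem_normalizer_iff_cj]; exact cj_normal M x)
    have hPM : ¬ PG ≤ M := by
      intro h
      apply hPG.2.2
      have h1 : M.relIndex A0 ∣ PG.relIndex A0 := by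
        have e1 : (A0 ⊓ M).relIndex A0 = M.relIndex A0 := by rw [inf_comm, Subgroup.inf_relIndex_right]
        rw [← e1]
        exact Subgroup.relIndex_dvd_of_le_left A0 (le_inf hPG.1 h)
      exact (hpi.trans (by rw [← hidx]; exact dvd_refl _)).trans h1
    have hle : (Q : Subgroup G) ⊓ M ≤ PG := by
      rcases cyc_chain Q.2 hcyc hQ (inf_le_left : (Q : Subgroup G) ⊓ M ≤ Q) with h | h
      · exact absurd (h.trans inf_le_right) hPM
      · exact h
    refine ⟨?_, ?_⟩
    · haveI := hcyc
      exact isCyclic_of_injective (Subgroup.inclusion hQ) (Subgroup.inclusion_injective hQ)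
    · have h1 : Nat.card ↥((Q : Subgroup G) ⊓ M) ∣ Nat.card ↥(A0 ⊓ M) :=
        Subgroup.card_dvd_of_le (le_inf (hle.trans hPG.1) inf_le_right)
      have h2 : (Nat.card M).factorization p = (Nat.card ↥((Q : Subgroup G) ⊓ M)).factorization p := by
        have e1 : Nat.card ↥((Q : Subgroup G) ⊓ M) * ((Q : Subgroup G) ⊓ M).relIndex M = Nat.card M := by
          have e0 := (((Q : Subgroup G) ⊓ M).subgroupOf M).card_mul_index
          rwa [Nat.card_congr (Subgroup.subgroupOfEquivOfLe (inf_le_right : (Q : Subgroup G) ⊓ M ≤ M)).toEquiv] at e0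
        rw [← e1, Nat.factorization_mul Nat.card_pos.ne' (by
            intro h0; rw [h0, mul_zero] at e1; exact Nat.card_pos.ne' e1.symm), Finsupp.add_apply,
          Nat.factorization_eq_zero_of_not_dvd hQM.2.2, add_zero]
      rw [h2]
      exact (Nat.factorization_le_iff_dvd Nat.card_pos.ne' Nat.card_pos.ne').mpr h1 p
  refine ⟨A0, hA0, ?_, ?_⟩
  · -- A0 is abelian
    have hsyl : ∀ (p : ℕ) (hp : Fact p.Prime) (P : Sylow p A0), ∀ x y : (P : Subgroup A0), x * y = y * x := by
      intro p hp P
      haveI := hp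
      by_cases hpi : p ∣ M.relIndex A
      · by_cases hpM : p ∣ Nat.card M
        · have hPs : IsSyl p ((P : Subgroup A0).map A0.subtype) A0 := by
            rw [isSyl_iff (Subgroup.map_subtype_le _)]
            refine ⟨P, ?_⟩
            rw [Subgroup.subgroupOf, Subgroup.comap_map_eq_self_of_injective A0.subtype_injective]
          obtain ⟨hc, -⟩ := hboth p hp.out hpi hpM _ hPs
          haveI : IsCyclic (P : Subgroup A0) :=
            isCyclic_of_injective ((P : Subgroup A0).equivMapOfInjective A0.subtype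
              A0.subtype_injective).toMonoidHom (MulEquiv.injective _)
          letI := IsCyclic.commGroup (α := (P : Subgroup A0))
          intro x y
          exact mul_comm x y
        · -- p does not divide |M|
          intro x y
          have h1 : (x : A0) * y * (x : A0)⁻¹ * (y : A0)⁻¹ ∈ D := hcomm x y
          have h2 : (x * y * x⁻¹ * y⁻¹ : (P : Subgroup A0)) = 1 := by
            apply Subtype.ext
            have h3 : ((x * y * x⁻¹ * y⁻¹ : (P : Subgroup A0)) : A0) ∈ D := h1
            obtain ⟨k, hk⟩ := (IsPGroup.iff_orderOf.mp P.2) (x * y * x⁻¹ * y⁻¹)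
            have h4 : orderOf ((x * y * x⁻¹ * y⁻¹ : (P : Subgroup A0)) : A0) = p ^ k := by
              rw [Subgroup.orderOf_coe, hk]
            have h5 : orderOf ((x * y * x⁻¹ * y⁻¹ : (P : Subgroup A0)) : A0) ∣ Nat.card D := by
              rw [← Nat.card_zpowers]
              exact Subgroup.card_dvd_of_le (by rw [Subgroup.zpowers_le]; exact h3)
            have h6 : Nat.card D ∣ Nat.card M := by
              rw [hcardD]; exact Subgroup.card_dvd_of_le inf_le_right
            rw [h4] at h5
            have hk0 : k = 0 := by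
              by_contra hk0
              exact hpM ((dvd_pow_self p hk0).trans (h5.trans h6))
            rw [hk0, pow_zero, orderOf_eq_one_iff] at h4
            exact h4
          have h7 := mul_inv_eq_one.mp h2
          exact mul_inv_eq_iff_eq_mul.mp h7
      · have h1 := hnp p hp.out hpi
        have h2 : (P : Subgroup A0) = ⊥ := by
          have h3 : Nat.card (P : Subgroup A0) = 1 := by
            obtain ⟨n, hn⟩ := IsPGroup.iff_card.mp P.2
            rcases Nat.eq_zero_or_pos n with h | h
            · rw [hn, h, pow_zero]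
            · exfalso
              apply h1
              have h4 : Nat.card (P : Subgroup A0) ∣ Nat.card A0 := Subgroup.card_subgroup_dvd_card _
              rw [hn] at h4
              exact (dvd_pow_self p h.ne').trans h4
          exact Subgroup.card_eq_one.mp h3
        intro x y
        have hx : x = 1 := by
          apply Subtype.ext
          exact Subgroup.mem_bot.mp (h2.le x.2)
        rw [hx, one_mul, mul_one]
    obtain ⟨e⟩ := (Group.isNilpotent_of_finite_tfae (G := A0)).out 0 4 |>.mp hnil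
    refine ⟨⟨?_⟩⟩
    intro a b
    have h1 : e.symm a * e.symm b = e.symm b * e.symm a := by
      funext p P
      haveI : Fact (p : ℕ).Prime := ⟨Nat.prime_of_mem_primeFactors p.2⟩
      exact hsyl p ‹_› P _ _
    have h2 := congrArg e h1
    simpa using h2
  · intro p hp
    haveI : Fact p.Prime := ⟨hp⟩
    by_cases hpi : p ∣ M.relIndex A
    · rw [if_pos hpi]
      by_cases hpM : p ∣ Nat.card M
      · obtain ⟨PG, hPG⟩ := exists_isSyl (p := p) A0
        apply le_antisymm _ (hboth p hp hpi hpM PG hPG).2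
        exact (Nat.factorization_le_iff_dvd Nat.card_pos.ne' Nat.card_pos.ne').mpr
          (Subgroup.card_dvd_of_le inf_le_right) p
      · rw [Nat.factorization_eq_zero_of_not_dvd hpM]
        apply Nat.factorization_eq_zero_of_not_dvd
        intro h
        exact hpM (h.trans (Subgroup.card_dvd_of_le inf_le_right))
    · rw [if_neg hpi]
      apply Nat.factorization_eq_zero_of_not_dvd
      intro h
      exact hnp p hp hpi (h.trans (Subgroup.card_dvd_of_le inf_le_left))

end Cfsg.Agent.H27.Bgp
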