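import Mathlib
import Cfsg.Agent.H27_Bs11
import Cfsg.Agent.H27_FusFac2
import Cfsg.Agent.H27_FusAb
import Cfsg.Agent.H27_FusInv3

/-! Frobenius-type criterion with the Frattini subgroup. -/

set_option autoImplicit false

namespace Cfsg.Agent.H27.Bs

open Equiv Cfsg.FusionSystem Cfsg.Agent.H27.Fus Cfsg.Agent.H27.Grp

universe u

section
variable {Ω : Type u} [Group Ω] {S : Subgroup Ω} {F : FusionSystem S} {P Q R : Subgroup Ω} {f g : Ω → Ω}
  {p : ℕ}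

theorem hyp_bot_of_le_frattini [Finite S] [hp : Fact p.Prime] (hS : IsPGroup p S) (hF : F.IsSaturated p)
    (h : F.hyperfocalSubgroup p ≤ (frattini ↥S).map S.subtype) : F.hyperfocalSubgroup p = ⊥ := by
  by_contra hne
  obtain ⟨C, h1, h2, h3, h4⟩ := tate_core hS hF (K := ⊥) (fun s hs k hk => by
    rw [Subgroup.mem_bot] at hk; rw [hk]; simp) (bot_lt_iff_ne_bot.2 hne)
  exact h4 (h.trans h2)

/-- maps are trivial modulo a strongly closed subgroup with abelian quotient when `Aut_F(S)` is inner -/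
theorem mod_of_abelian_quot [Finite S] [hp : Fact p.Prime] (hS : IsPGroup p S) (hF : F.IsSaturated p) {T : Subgroup Ω}
    (hT : F.StronglyClosed T) (hab : ∀ x ∈ S, ∀ y ∈ S, x * y * x⁻¹ * y⁻¹ ∈ T) (hf : Map F P f) :
    ∃ g, Iso F S S g ∧ ∀ x ∈ P, (g x)⁻¹ * f x ∈ T := by
  have hTS := hT.1
  haveI hTn : (T.subgroupOf S).Normal := ⟨fun x hx g => StronglyClosed.conj_mem hT g.2 hx⟩
  have hd := facData_mk hT
  obtain hE := facFS_isFactor (F := F) hd hT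
  have hEs := factor_saturated hS hF hE hT
  haveI := finite_S' hd
  have hEn := abelian_S_normal (isPGroup_S' hd hS) hEs (by
    intro x _ y _
    obtain ⟨a, rfl⟩ := QuotientGroup.mk'_surjective (T.subgroupOf S) x
    obtain ⟨b, rfl⟩ := QuotientGroup.mk'_surjective (T.subgroupOf S) y
    rw [← map_mul, ← map_mul]
    apply QuotientGroup.eq.2
    show (((a * b)⁻¹ * (b * a) : ↥S) : Ω) ∈ T
    have := T.inv_mem (hab a⁻¹ (S.inv_mem a.2) b (b.2))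
    have h2 := StronglyClosed.conj_mem hT (S.inv_mem b.2) this
    have h3 : (((a * b)⁻¹ * (b * a) : ↥S) : Ω) = (b : Ω)⁻¹ * (((a : Ω)⁻¹ * b * (a : Ω)⁻¹⁻¹ * (b : Ω)⁻¹))  * (b : Ω)⁻¹⁻¹ := by
      push_cast; group
    rw [h3]
    exact StronglyClosed.conj_mem hT (S.inv_mem b.2) (hab a⁻¹ (S.inv_mem a.2) b b.2))
  obtain ⟨f', hf', hind⟩ := ((isMorphism_iff _).1 (surjective_of_factor hS hF hE hT).1).2 P f hf
  obtain ⟨g', hg', hgf'⟩ := normal_S_ext hEn hf'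
  obtain ⟨g, hg, hgi⟩ := iso_lift hE hT hg'
  rw [pre_S' hd] at hg hgi
  refine ⟨g, hg, fun x hx => ?_⟩
  have h1 := hgi x (hf.le hx)
  have h2 := hind x hx
  have h3 := hgf' (tt (QuotientGroup.mk' (T.subgroupOf S)) x) ((mem_imageAlong _ hf.le).2 ⟨x, hx, rfl⟩)
  rw [h1, h2] at h3
  exact (hd.eq_iff (hf.mem hx) (hg.map.mem (hf.le hx))).1 h3.symm

theorem inner_of_frattini [Finite S] [hp : Fact p.Prime] (hS : IsPGroup p S) (hF : F.IsSaturated p)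
    (hA : ∀ f, Iso F S S f → ∃ s ∈ S, ∀ x ∈ S, f x = s * x * s⁻¹)
    (hΦ : F.StronglyClosed ((frattini ↥S).map S.subtype)) {P : Subgroup Ω} {f : Ω → Ω} (hf : Map F P f) :
    ∃ s ∈ S, ∀ x ∈ P, f x = s * x * s⁻¹ := by
  have hcomm : ∀ x ∈ S, ∀ y ∈ S, x * y * x⁻¹ * y⁻¹ ∈ (frattini ↥S).map S.subtype := by
    intro x hx y hy
    have h1 := H2.PGroup.commutator_le_frattini hS
    exact ⟨⟨x, hx⟩ * ⟨y, hy⟩ * ⟨x, hx⟩⁻¹ * ⟨y, hy⟩⁻¹,
      h1 (Subgroup.commutator_mem_commutator (Subgroup.mem_top _) (Subgroup.mem_top _)), rfl⟩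
  have hfoc : F.focalSubgroup ≤ (frattini ↥S).map S.subtype := by
    rw [foc_eq, Subgroup.closure_le]
    rintro _ ⟨P, f, hf, x, hx, rfl⟩
    obtain ⟨g, hg, hgf⟩ := mod_of_abelian_quot hS hF hΦ hcomm hf
    obtain ⟨s, hs, hs'⟩ := hA g hg
    have h1 := hgf x hx
    rw [hs' x (hf.le hx)] at h1
    have h2 := Subgroup.mul_mem _ (hcomm x⁻¹ (S.inv_mem (hf.le hx)) s hs) h1
    have h3 : x⁻¹ * s * x⁻¹⁻¹ * s⁻¹ * ((s * x * s⁻¹)⁻¹ * f x) = x⁻¹ * f x := by group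
    rwa [h3] at h2
  have hbot := hyp_bot_of_le_frattini hS hF (hyp_le_foc.trans hfoc)
  obtain ⟨s, hs, h⟩ := map_mod_hyp' hS hF P f hf
  refine ⟨s, hs, fun x hx => ?_⟩
  obtain ⟨k, hk, hk'⟩ := h x hx
  rw [hbot, Subgroup.mem_bot] at hk
  rw [hk', hk, mul_one]

end

end Cfsg.Agent.H27.Bs
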