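import Mathlib
import Cfsg.Agent.H27_FusIso
import Cfsg.Agent.H27_FusHyp

/-! transport of quasisimple systems, subnormality, components -/

set_option autoImplicit false
set_option linter.unusedVariables false
set_option linter.unusedSectionVars false

namespace Cfsg.Agent.H27.Fus
open Cfsg Cfsg.FusionSystem Cfsg.Agent.H27.Grp

variable {Ω : Type*} [Group Ω] {S : Subgroup Ω}
variable {Ω' : Type*} [Group Ω'] {S' : Subgroup Ω'}

section
variable {F : FusionSystem S} {F' : FusionSystem S'} {j : Ω → Ω'} {k : Ω' → Ω} {P Q T : Subgroup Ω} {f g : Ω → Ω}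
variable {p : ℕ}

def GIso.eqv (h : GIso S S' j k) (hP : P ≤ S) : P ≃* imj P j where
  toFun x := ⟨j x, (h.apply_mem_iff hP (hP x.2)).2 x.2⟩
  invFun y := ⟨k y, ((h.mem_imj' hP).1 y.2).2⟩
  left_inv x := Subtype.ext (h.kj x (hP x.2))
  right_inv y := Subtype.ext (h.jk y (h.imj_le hP y.2))
  map_mul' x y := Subtype.ext (h.mul x (hP x.2) y (hP y.2))

theorem GIso.eqv_apply (h : GIso S S' j k) (hP : P ≤ S) (x : P) : (h.eqv hP x : Ω') = j x := rfl

theorem FIso.autG (h : FIso F F' j k) (hP : P ≤ S) :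
    (F.autGroup P).map (MulAut.congr (h.toGIso.eqv hP)).toMonoidHom ≤ F'.autGroup (imj P j) := by
  rintro _ ⟨α, hα, rfl⟩
  have h1 := (mem_autGroup_iff hP).1 hα
  refine mem_autGroup_of (h.map P _ h1.map) fun y => ?_
  show j (α ((h.toGIso.eqv hP).symm y)) = j (totA α (k y))
  have h2 : k (y : Ω') ∈ P := ((h.toGIso.mem_imj' hP).1 y.2).2
  rw [totA_of_mem α h2]
  rfl

theorem FIso.hyp_mem (h : FIso F F' j k) {y : Ω} (hy : y ∈ F.hyperfocalSubgroup p) : j y ∈ F'.hyperfocalSubgroup p := by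
  have key : y ∈ S ∧ j y ∈ F'.hyperfocalSubgroup p := by
    rw [hyp_eq] at hy
    refine Subgroup.closure_induction (p := fun y _ => y ∈ S ∧ j y ∈ F'.hyperfocalSubgroup p) ?_ ?_ ?_ ?_ hy
    · rintro _ ⟨P, α, x, hP, hα, rfl⟩
      refine ⟨S.mul_mem (S.inv_mem (hP x.2)) (hP (α x).2), ?_⟩
      have h1 : (MulAut.congr (h.toGIso.eqv hP)) α ∈ opR p (F'.autGroup (imj P j)) := by
        have h2 : (MulAut.congr (h.toGIso.eqv hP)) α ∈ (opR p (F.autGroup P)).map (MulAut.congr (h.toGIso.eqv hP)).toMonoidHom :=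
          ⟨α, hα, rfl⟩
        rw [map_opR_equiv] at h2
        exact opR_mono (h.autG hP) h2
      have h3 := mem_hyp (h.imj_le hP) h1 (h.toGIso.eqv hP x)
      have h4 : ((MulAut.congr (h.toGIso.eqv hP)) α) (h.toGIso.eqv hP x) = h.toGIso.eqv hP (α x) := by
        show h.toGIso.eqv hP (α ((h.toGIso.eqv hP).symm (h.toGIso.eqv hP x))) = _
        rw [MulEquiv.symm_apply_apply]
      rw [h4, GIso.eqv_apply, GIso.eqv_apply] at h3
      rw [h.mul _ (S.inv_mem (hP x.2)) _ (hP (α x).2), h.toGIso.inv (hP x.2)]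
      exact h3
    · exact ⟨S.one_mem, by rw [h.toGIso.one]; exact Subgroup.one_mem _⟩
    · rintro x y _ _ ⟨h1, h2⟩ ⟨h3, h4⟩
      exact ⟨S.mul_mem h1 h3, by rw [h.mul _ h1 _ h3]; exact Subgroup.mul_mem _ h2 h4⟩
    · rintro x _ ⟨h1, h2⟩
      exact ⟨S.inv_mem h1, by rw [h.toGIso.inv h1]; exact Subgroup.inv_mem _ h2⟩
  exact key.2

theorem FIso.hyp_top (h : FIso F F' j k) (hF : F.hyperfocalSubgroup p = S) : F'.hyperfocalSubgroup p = S' := by
  refine le_antisymm hyp_le fun y hy => ?_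
  have h1 : k y ∈ F.hyperfocalSubgroup p := by rw [hF]; exact h.km y hy
  have h2 := h.hyp_mem h1
  rwa [h.jk y hy] at h2

theorem FIso.central (h : FIso F F' j k) (hT : F.IsCentral T) : F'.IsCentral (imj T j) := by
  have hTS := hT.1
  rw [isCentral_iff] at hT ⊢
  refine ⟨h.imj_le hTS, fun P' f' hf' => ?_⟩
  have hP'S := hf'.le
  obtain ⟨g, hg, hgf, hgT⟩ := hT.2 _ _ (h.map' _ _ hf')
  have h1 := h.map _ _ hg
  have e : imj (imj P' k ⊔ T) j = P' ⊔ imj T j := by
    rw [h.imj_sup (h.symm.imj_le hP'S) hTS, h.symm.imj_imj hP'S]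
  refine ⟨j ∘ g ∘ k, e ▸ h1, ?_, ?_⟩
  · intro x hx
    have hx' := hP'S hx
    simp only [Function.comp]
    have h2 : k x ∈ imj P' k := (h.symm.apply_mem_iff hP'S hx').2 hx
    rw [hgf _ h2]
    simp only [Function.comp]
    rw [h.jk x hx', h.jk _ (hf'.mem hx)]
  · intro x hx
    obtain ⟨y, hy, rfl⟩ := (h.mem_imj hTS).1 hx
    simp only [Function.comp]
    rw [h.kj y (hTS hy), hgT y hy]

theorem FIso.center_eq (h : FIso F F' j k) [Finite S] : F'.center = imj F.center j := by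
  haveI : Finite S' := h.toGIso.finite
  have h1 := le_center (h.central (center_central F))
  have h2 := le_center (h.symm.central (center_central F'))
  refine le_antisymm ?_ h1
  have h3 := imj_mono (j := j) h2
  rwa [h.symm.imj_imj (center_central F').1] at h3

end

section fac
variable {Ω₁ : Type*} [Group Ω₁] {U : Subgroup Ω₁} {Ω₂ : Type*} [Group Ω₂] {U' : Subgroup Ω₂}
variable {F : FusionSystem S} {F' : FusionSystem S'} {j : Ω → Ω'} {k : Ω' → Ω} {S₀ : Subgroup Ω}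
variable {θ : S →* Ω₁} {θ' : S' →* Ω₂} {E : FusionSystem U} {E' : FusionSystem U'} {j' : Ω₁ → Ω₂} {k' : Ω₂ → Ω₁}

theorem fac_half (h : FIso F F' j k) (hE : F.IsFactorSystem S₀ θ E) (hE' : F'.IsFactorSystem (imj S₀ j) θ' E')
    (hg : GIso U U' j' k') (hj : ∀ x ∈ S, j' (tt θ x) = tt θ' (j x)) (hk : ∀ x ∈ S', k' (tt θ' x) = tt θ (k x))
    (P : Subgroup Ω₁) (f : Ω₁ → Ω₁) (hf : Map E P f) : Map E' (imj P j') (j' ∘ f ∘ k') := by
  have hfle := hf.le
  have hfm := fun x (hx : x ∈ P) => hf.mem hx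
  have hfmul := fun x (hx : x ∈ P) y (hy : y ∈ P) => hf.mul hx hy
  obtain ⟨hd, hE⟩ := isFactorSystem_iff.1 hE
  obtain ⟨hd', hE'⟩ := isFactorSystem_iff.1 hE'
  obtain ⟨-, -, g, hgm, hI⟩ := (hE P f).1 hf
  have hpre : preimageAlong θ' (imj P j') = imj (preimageAlong θ P) j := by
    ext x
    rw [mem_preimageAlong, h.mem_imj' (preimageAlong_le θ P), mem_preimageAlong]
    constructor
    · rintro ⟨h1, h2⟩
      refine ⟨h1, h.km x h1, ?_⟩
      have h3 := ((hg.mem_imj' hfle).1 h2).2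
      rwa [hk x h1] at h3
    · rintro ⟨h1, h2, h3⟩
      refine ⟨h1, ?_⟩
      rw [hg.mem_imj' hfle, hk x h1]
      refine ⟨hd'.mem h1, h3⟩
  rw [hE']
  refine ⟨hg.imj_le hfle, ?_, j ∘ g ∘ k, ?_, ?_⟩
  · intro x' hx' y' hy'
    obtain ⟨x, hx, rfl⟩ := (hg.mem_imj hfle).1 hx'
    obtain ⟨y, hy, rfl⟩ := (hg.mem_imj hfle).1 hy'
    simp only [Function.comp]
    rw [← hg.mul x (hfle hx) y (hfle hy), hg.kj _ (U.mul_mem (hfle hx) (hfle hy)), hg.kj _ (hfle hx), hg.kj _ (hfle hy),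
      hfmul x hx y hy, hg.mul _ (hfm x hx) _ (hfm y hy)]
  · rw [hpre]; exact h.map _ _ hgm
  · rw [hpre]
    intro x hx
    obtain ⟨z, hz, rfl⟩ := (h.mem_imj (preimageAlong_le θ P)).1 hx
    have hzS := preimageAlong_le θ P hz
    simp only [Function.comp]
    rw [hk _ (h.jm z hzS), h.kj z hzS, hI z hz, hj _ (hgm.mem hz)]

theorem fac_fiso {S₀' : Subgroup Ω'} (e : S₀' = imj S₀ j) (h : FIso F F' j k) (hE : F.IsFactorSystem S₀ θ E) (hE' : F'.IsFactorSystem S₀' θ' E') :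
    ∃ j' k', FIso E E' j' k' := by
  subst e
  classical
  have hd := (isFactorSystem_iff.1 hE).1
  have hd' := (isFactorSystem_iff.1 hE').1
  have h0 : S₀ ≤ S := hE.1
  choose! sc hsc1 hsc2 using fun (y : Ω₁) (hy : y ∈ U) => hd.surj hy
  choose! sc' hsc1' hsc2' using fun (y : Ω₂) (hy : y ∈ U') => hd'.surj hy
  let j' : Ω₁ → Ω₂ := fun y => tt θ' (j (sc y))
  let k' : Ω₂ → Ω₁ := fun y => tt θ (k (sc' y))
  have hj : ∀ x ∈ S, j' (tt θ x) = tt θ' (j x) := by
    intro x hx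
    have h1 := hd.mem hx
    have h2 := (hd.eq_iff (hsc1 _ h1) hx).1 (hsc2 _ h1)
    refine (hd'.eq_iff (h.jm _ (hsc1 _ h1)) (h.jm _ hx)).2 ?_
    rw [← h.toGIso.inv hx, ← h.mul _ (S.inv_mem hx) _ (hsc1 _ h1)]
    exact (h.mem_imj h0).2 ⟨_, h2, rfl⟩
  have hk : ∀ x ∈ S', k' (tt θ' x) = tt θ (k x) := by
    intro x hx
    have h1 := hd'.mem hx
    have h2 := (hd'.eq_iff (hsc1' _ h1) hx).1 (hsc2' _ h1)
    refine (hd.eq_iff (h.km _ (hsc1' _ h1)) (h.km _ hx)).2 ?_
    rw [← h.symm.toGIso.inv hx, ← h.symm.mul _ (S'.inv_mem hx) _ (hsc1' _ h1)]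
    exact ((h.mem_imj' h0).1 h2).2
  have hg : GIso U U' j' k' := by
    refine ⟨?_, ?_, ?_, ?_, ?_⟩
    · intro x hx; exact hd'.mem (h.jm _ (hsc1 x hx))
    · intro x hx; exact hd.mem (h.km _ (hsc1' x hx))
    · intro x hx
      show k' (tt θ' (j (sc x))) = x
      rw [hk _ (h.jm _ (hsc1 x hx)), h.kj _ (hsc1 x hx), hsc2 x hx]
    · intro x hx
      show j' (tt θ (k (sc' x))) = x
      rw [hj _ (h.km _ (hsc1' x hx)), h.jk _ (hsc1' x hx), hsc2' x hx]
    · intro x hx y hy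
      have h1 : x * y = tt θ (sc x * sc y) := by rw [tt_mul θ (hsc1 x hx) (hsc1 y hy), hsc2 x hx, hsc2 y hy]
      rw [h1, hj _ (S.mul_mem (hsc1 x hx) (hsc1 y hy)), h.mul _ (hsc1 x hx) _ (hsc1 y hy),
        tt_mul θ' (h.jm _ (hsc1 x hx)) (h.jm _ (hsc1 y hy))]
  refine ⟨j', k', hg, fac_half h hE hE' hg hj hk, ?_⟩
  have hE2 : F.IsFactorSystem (imj (imj S₀ j) k) θ E := by rwa [h.imj_imj h0]
  exact fac_half h.symm hE' hE2 hg.symm hk hj

theorem FIso.quasisimple {p : ℕ} [Fact p.Prime] [Finite S] (hS : IsPGroup p S) (h : FIso F F' j k)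
    (hq : F.Quasisimple p) : F'.Quasisimple p := by
  haveI : Finite S' := h.toGIso.finite
  refine ⟨h.saturated hS hq.1, h.hyp_top hq.2.1, fun E' hE' => ?_⟩
  have hZ : F.StronglyClosed F.center := IsNormal.strong (IsCentral.normal (center_central F))
  have hE := facFS_isFactor (facData_mk hZ) hZ
  have hsim := hq.2.2 _ hE
  obtain ⟨j', k', h1⟩ := fac_fiso h.center_eq h hE hE'
  exact h1.simple (isPGroup_S' (facData_mk hZ) hS) hsim

end fac

section subn

theorem fs_of_fiso {F : FusionSystem S} {F₁ F₂ : FusionSystem S'} {j : Ω → Ω'} {k : Ω' → Ω} (h1 : FIso F F₁ j k)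
    (h2 : FIso F F₂ j k) : F₁ = F₂ := by
  have key : ∀ {F₁ F₂ : FusionSystem S'}, FIso F F₁ j k → FIso F F₂ j k → ∀ P f, Map F₁ P f → Map F₂ P f := by
    intro F₁ F₂ h1 h2 P f hf
    have h3 := h2.map _ _ (h1.map' _ _ hf)
    rw [h1.symm.imj_imj hf.le] at h3
    refine h3.congr fun x hx => ?_
    simp only [Function.comp]
    rw [h1.jk x (hf.le hx), h1.jk _ (hf.mem hx)]
  exact fs_ext fun P => hom_eq_of_map fun f => ⟨key h1 h2 P f, key h2 h1 P f⟩

theorem subn_transport {p : ℕ} {T S : Subgroup Ω} {C : FusionSystem T} {F : FusionSystem S}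
    (hC : IsSubnormalIn C F p) : Fact p.Prime → Finite S → IsPGroup p S → ∀ {S' : Subgroup Ω'} {F' : FusionSystem S'}
      {T' : Subgroup Ω'} {C' : FusionSystem T'} {j : Ω → Ω'} {k : Ω' → Ω}, FIso F F' j k → FIso C C' j k →
      IsSubnormalIn C' F' p := by
  induction hC with
  | refl F p =>
    intro _ _ _ S' F' T' C' j k h1 h2
    have e : S' = T' := by rw [← h1.toGIso.imj_top, ← h2.toGIso.imj_top]
    subst e
    rw [fs_of_fiso h1 h2]
    exact IsSubnormalIn.refl _ _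
  | @step U S E D F p hED hDF ih =>
    intro hp hfin hS S' F' T' C' j k h1 h2
    haveI := hp
    haveI := hfin
    have hU : U ≤ S := hDF.1.2.2.2.1.1
    haveI : Finite U := Finite.of_injective (Subgroup.inclusion hU) (Subgroup.inclusion_injective _)
    have h3 := fiso_push (h1.toGIso.sub hU) D
    exact IsSubnormalIn.step (ih hp inferInstance (hS.to_le hU) h3 h2) (FIso.normalIn hS h1 h3 hDF)

theorem subn_le {p : ℕ} {T S : Subgroup Ω} {C : FusionSystem T} {F : FusionSystem S}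
    (hC : IsSubnormalIn C F p) : T ≤ S := by
  induction hC with
  | refl F p => exact le_rfl
  | step hED hDF ih => exact ih.trans hDF.1.2.2.2.1.1

theorem FIso.component {p : ℕ} [Fact p.Prime] [Finite S] {T : Subgroup Ω} {T' : Subgroup Ω'} {F : FusionSystem S}
    {F' : FusionSystem S'} {C : FusionSystem T} {C' : FusionSystem T'} {j : Ω → Ω'} {k : Ω' → Ω} (hS : IsPGroup p S)
    (hTS : T ≤ S) (h : FIso F F' j k) (hC : FIso C C' j k) (hc : C.IsComponentIn F p) : C'.IsComponentIn F' p := by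
  haveI : Finite T := Finite.of_injective (Subgroup.inclusion hTS) (Subgroup.inclusion_injective _)
  exact ⟨subn_transport hc.1 inferInstance inferInstance hS h hC, hC.quasisimple (hS.to_le hTS) hc.2⟩

end subn

end Cfsg.Agent.H27.Fus
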