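import Mathlib
import Cfsg.Agent.H27_Cmp1

/-! images of components under maps of the system -/

set_option autoImplicit false
set_option linter.unusedVariables false
set_option linter.unusedSectionVars false

namespace Cfsg.Agent.H27.Fus
open Cfsg Cfsg.FusionSystem Cfsg.Agent.H27.Grp

section
variable {Ω : Type*} [Group Ω] {S : Subgroup Ω}
variable {Ω' : Type*} [Group Ω'] {S' : Subgroup Ω'}
variable {Ω'' : Type*} [Group Ω''] {S'' : Subgroup Ω''}
variable {F : FusionSystem S} {F' : FusionSystem S'} {F'' : FusionSystem S''} {j j₁ : Ω → Ω'} {k k₁ : Ω' → Ω}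
  {j' : Ω' → Ω''} {k' : Ω'' → Ω'} {P Q T : Subgroup Ω} {f g : Ω → Ω}

theorem GIso.congr (h : GIso S S' j k) (hj : ∀ x ∈ S, j x = j₁ x) (hk : ∀ x ∈ S', k x = k₁ x) : GIso S S' j₁ k₁ where
  jm := fun x hx => hj x hx ▸ h.jm x hx
  km := fun x hx => hk x hx ▸ h.km x hx
  kj := fun x hx => by rw [← hj x hx, ← hk _ (h.jm x hx), h.kj x hx]
  jk := fun x hx => by rw [← hk x hx, ← hj _ (h.km x hx), h.jk x hx]
  mul := fun x hx y hy => by rw [← hj _ (S.mul_mem hx hy), ← hj x hx, ← hj y hy, h.mul x hx y hy]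

theorem GIso.trans (h : GIso S S' j k) (h' : GIso S' S'' j' k') : GIso S S'' (j' ∘ j) (k ∘ k') where
  jm := fun x hx => h'.jm _ (h.jm x hx)
  km := fun x hx => h.km _ (h'.km x hx)
  kj := fun x hx => by simp only [Function.comp]; rw [h'.kj _ (h.jm x hx), h.kj x hx]
  jk := fun x hx => by simp only [Function.comp]; rw [h.jk _ (h'.km x hx), h'.jk x hx]
  mul := fun x hx y hy => by simp only [Function.comp]; rw [h.mul x hx y hy, h'.mul _ (h.jm x hx) _ (h.jm y hy)]

theorem imj_congr (hj : ∀ x ∈ P, j x = j₁ x) : imj P j = imj P j₁ := by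
  unfold imj
  congr 1
  ext y
  constructor
  · rintro ⟨x, hx, rfl⟩; exact ⟨x, hx, (hj x hx).symm⟩
  · rintro ⟨x, hx, rfl⟩; exact ⟨x, hx, hj x hx⟩

theorem FIso.congr (h : FIso F F' j k) (hj : ∀ x ∈ S, j x = j₁ x) (hk : ∀ x ∈ S', k x = k₁ x) : FIso F F' j₁ k₁ := by
  have hg := h.toGIso.congr hj hk
  refine ⟨hg, ?_, ?_⟩
  · intro P f hf
    have h1 := h.map P f hf
    rw [imj_congr fun x hx => hj x (hf.le hx)] at h1
    refine h1.congr fun x hx => ?_
    have h2 := h1.le hx
    obtain ⟨y, hy, rfl⟩ := (hg.mem_imj hf.le).1 hx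
    simp only [Function.comp]
    rw [hk _ h2, hg.kj y (hf.le hy), hj _ (hf.mem hy)]
  · intro P f hf
    have h1 := h.map' P f hf
    rw [imj_congr fun x hx => hk x (hf.le hx)] at h1
    refine h1.congr fun x hx => ?_
    have h2 := h1.le hx
    obtain ⟨y, hy, rfl⟩ := (hg.symm.mem_imj hf.le).1 hx
    simp only [Function.comp]
    rw [hj _ h2, hg.jk y (hf.le hy), hk _ (hf.mem hy)]

theorem GIso.imj_trans (h : GIso S S' j k) (h' : GIso S' S'' j' k') (hP : P ≤ S) :
    imj (imj P j) j' = imj P (j' ∘ j) := by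
  ext y
  rw [h'.mem_imj (h.imj_le hP), (h.trans h').mem_imj hP]
  constructor
  · rintro ⟨x, hx, rfl⟩
    obtain ⟨z, hz, rfl⟩ := (h.mem_imj hP).1 hx
    exact ⟨z, hz, rfl⟩
  · rintro ⟨x, hx, rfl⟩
    exact ⟨j x, (h.mem_imj hP).2 ⟨x, hx, rfl⟩, rfl⟩

theorem FIso.trans (h : FIso F F' j k) (h' : FIso F' F'' j' k') : FIso F F'' (j' ∘ j) (k ∘ k') := by
  refine ⟨h.toGIso.trans h'.toGIso, ?_, ?_⟩
  · intro P f hf
    have h1 := h'.map _ _ (h.map P f hf)
    rwa [h.toGIso.imj_trans h'.toGIso hf.le] at h1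
  · intro P f hf
    have h1 := h.map' _ _ (h'.map' P f hf)
    rwa [h'.symm.toGIso.imj_trans h.symm.toGIso hf.le] at h1

end

section
variable {Ω : Type*} [Group Ω]

/-- an automorphism of `S` in `F` is an automorphism of `F` -/
theorem fiso_self {S : Subgroup Ω} {F : FusionSystem S} {a : Ω → Ω} (ha : Iso F S S a) : FIso F F a (finv S a) := by
  have hi : ∀ P ≤ S, imj P a = im P a := fun P hP => rfl
  have key : ∀ {a b : Ω → Ω}, Iso F S S a → Iso F S S b → (∀ x ∈ S, b (a x) = x) → ∀ P f, Map F P f → Map F (imj P a) (a ∘ f ∘ b) := by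
    intro a b ha hb hba P f hf
    have h1 := (ha.restrict hf.le)
    refine (ha.map.comp (hf.comp (hb.map.mono h1.le') ?_) ?_)
    · intro x hx
      obtain ⟨y, hy, rfl⟩ := h1.map.mem_im.1 hx
      rw [hba y (hf.le hy)]; exact hy
    · intro x hx
      obtain ⟨y, hy, rfl⟩ := h1.map.mem_im.1 hx
      show f (b (a y)) ∈ S
      rw [hba y (hf.le hy)]; exact hf.mem hy
  have h1 : ∀ x ∈ S, finv S a (a x) = x := fun x hx => ha.finv_left hx
  have h2 : ∀ x ∈ S, a (finv S a x) = x := fun x hx => ha.finv_right hx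
  exact ⟨⟨fun x hx => ha.map.mem hx, fun x hx => ha.finv_mem hx, h1, h2, fun x hx y hy => ha.map.mul hx hy⟩,
    key ha ha.symm h1, key ha.symm ha h2⟩

/-- `Aut_F(T)` acts on an invariant subsystem over `T` -/
theorem fiso_inv {S T : Subgroup Ω} {F : FusionSystem S} {E : FusionSystem T} (hI : Inv E F) {a : Ω → Ω}
    (ha : Iso F T T a) : FIso E E a (finv T a) := by
  have key : ∀ {a b : Ω → Ω}, Iso F T T a → Iso F T T b → (∀ x ∈ T, b (a x) = x) → ∀ P f, Map E P f → Map E (imj P a) (a ∘ f ∘ b) := by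
    intro a b ha hb hba P f hf
    obtain ⟨g, hg, hgf⟩ := hI.inv P f a hf ha
    refine hg.congr fun x hx => ?_
    obtain ⟨y, hy, rfl⟩ := (ha.restrict hf.le).map.mem_im.1 hx
    simp only [Function.comp]
    rw [hgf y hy, hba y (hf.le hy)]
  have h1 : ∀ x ∈ T, finv T a (a x) = x := fun x hx => ha.finv_left hx
  have h2 : ∀ x ∈ T, a (finv T a x) = x := fun x hx => ha.finv_right hx
  have hTm : ∀ x ∈ T, a x ∈ T := fun x hx => ha.im_eq ▸ ha.map.apply_mem_im hx
  exact ⟨⟨hTm, fun x hx => ha.finv_mem hx, h1, h2, fun x hx y hy => ha.map.mul hx hy⟩,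
    key ha ha.symm h1, key ha.symm ha h2⟩

theorem giso_of_iso {S : Subgroup Ω} {F : FusionSystem S} {P Q : Subgroup Ω} {f : Ω → Ω} (h : Iso F P Q f) :
    GIso P Q f (finv P f) where
  jm := fun x hx => h.im_eq ▸ h.map.apply_mem_im hx
  km := fun x hx => h.finv_mem hx
  kj := fun x hx => h.finv_left hx
  jk := fun x hx => h.finv_right hx
  mul := fun x hx y hy => h.map.mul hx hy

theorem subn_map {p : ℕ} {T S : Subgroup Ω} {C : FusionSystem T} {F : FusionSystem S}
    (hC : IsSubnormalIn C F p) : Fact p.Prime → Finite S → IsPGroup p S → ∀ {T' : Subgroup Ω} {E : FusionSystem T'}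
      {c k : Ω → Ω}, Map F T c → FIso C E c k → IsSubnormalIn E F p := by
  induction hC with
  | refl F p =>
    intro _ hfin _ T' E c k hc h
    have hi : im T c = T := by
      refine Subgroup.eq_of_le_of_card_ge hc.im_le ?_
      rw [hc.card_im]
    have e : T = T' := by
      have h1 := h.toGIso.imj_top
      exact hi.symm.trans h1
    subst e
    have h2 := fiso_self (hc.iso_of_im_eq hi)
    have h3 : FIso F F c k := h2.congr (fun _ _ => rfl) fun x hx => by
      have h4 := h2.toGIso.km x hx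
      rw [← h.toGIso.kj _ h4, h2.toGIso.jk x hx]
    rw [fs_of_fiso h h3]
    exact IsSubnormalIn.refl _ _
  | @step U S E D F p hED hDF ih =>
    intro hp hfin hS T' E' c k hc h
    haveI := hp
    haveI := hfin
    have hU : U ≤ S := hDF.1.2.2.2.1.1
    haveI : Finite U := Finite.of_injective (Subgroup.inclusion hU) (Subgroup.inclusion_injective _)
    have hI : Inv D F := (inv_iff).1 hDF.1.2.2
    obtain ⟨a, c0, ha, hc0, hac⟩ := hI.frat _ c (subn_le hED) hc
    have h0 := fiso_push (giso_of_iso hc0.iso) E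
    have h1 := ih hp inferInstance (hS.to_le hU) hc0 h0
    have h5 := h0.symm.trans h
    have h6 : FIso (pushFS (giso_of_iso hc0.iso) E) E' a (finv U a) := by
      refine h5.congr ?_ ?_
      · intro x hx
        obtain ⟨z, hz, rfl⟩ := hc0.mem_im.1 hx
        simp only [Function.comp]
        rw [hc0.iso.finv_left hz]; exact hac z hz
      · intro x hx
        have hz := h.toGIso.km x hx
        have hx' := h.toGIso.jk x hx
        have h7 : x = a (c0 (k x)) := by rw [← hac _ hz, hx']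
        have h8 : finv U a x = c0 (k x) := by
          conv_lhs => rw [h7]
          exact ha.finv_left (hc0.mem hz)
        simp only [Function.comp]
        exact h8.symm
    exact IsSubnormalIn.step (subn_transport h1 hp inferInstance (hS.to_le hU) (fiso_inv hI ha) h6) hDF

theorem component_map {p : ℕ} [Fact p.Prime] {S : Subgroup Ω} [Finite S] {T T' : Subgroup Ω} {F : FusionSystem S}
    {C : FusionSystem T} {E : FusionSystem T'} {c k : Ω → Ω} (hS : IsPGroup p S) (hc : Map F T c)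
    (h : FIso C E c k) (hC : C.IsComponentIn F p) : E.IsComponentIn F p := by
  have hTS : T ≤ S := hc.le
  haveI : Finite T := Finite.of_injective (Subgroup.inclusion hTS) (Subgroup.inclusion_injective _)
  exact ⟨subn_map hC.1 inferInstance inferInstance hS hc h, h.quasisimple (hS.to_le hTS) hC.2⟩

/-- a factor system modulo the trivial subgroup is an isomorphic copy -/
theorem fiso_of_factor {Ω' : Type*} [Group Ω'] {T : Subgroup Ω} {C : FusionSystem T} {T' : Subgroup Ω'} {γ : T →* Ω'}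
    {E : FusionSystem T'} (h : C.IsFactorSystem ⊥ γ E) : ∃ k, FIso C E (tt γ) k := by
  obtain ⟨hd, hE⟩ := isFactorSystem_iff.1 h
  have hinj : ∀ x ∈ T, ∀ y ∈ T, tt γ x = tt γ y → x = y := by
    intro x hx y hy e
    have h1 := (hd.eq_iff hx hy).1 e
    rw [Subgroup.mem_bot] at h1
    exact (inv_mul_eq_one.1 h1).symm
  choose! k hk1 hk2 using fun (y : Ω') (hy : y ∈ T') => hd.surj hy
  have hg : GIso T T' (tt γ) k := by
    refine ⟨fun x hx => hd.mem hx, hk1, ?_, hk2, fun x hx y hy => tt_mul γ hx hy⟩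
    intro x hx
    exact hinj _ (hk1 _ (hd.mem hx)) _ hx (hk2 _ (hd.mem hx))
  have hpre : ∀ P', P' ≤ T' → preimageAlong γ P' = imj P' k := by
    intro P' hP'
    ext x
    rw [mem_preimageAlong, hg.symm.mem_imj' hP']
  refine ⟨k, hg, ?_, ?_⟩
  · intro P f hf
    have hPT := hf.le
    have hiP := hg.imj_le hPT
    rw [hE]
    refine ⟨hiP, ?_, f, ?_, ?_⟩
    · intro x' hx' y' hy'
      obtain ⟨x, hx, rfl⟩ := (hg.mem_imj hPT).1 hx'
      obtain ⟨y, hy, rfl⟩ := (hg.mem_imj hPT).1 hy'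
      simp only [Function.comp]
      rw [← hg.mul x (hPT hx) y (hPT hy), hg.kj _ (T.mul_mem (hPT hx) (hPT hy)), hg.kj _ (hPT hx), hg.kj _ (hPT hy),
        hf.mul hx hy, hg.mul _ (hf.mem hx) _ (hf.mem hy)]
    · rw [hpre _ hiP, hg.imj_imj hPT]; exact hf
    · rw [hpre _ hiP, hg.imj_imj hPT]
      intro x hx
      simp only [Function.comp]
      rw [hg.kj x (hPT hx)]
  · intro P' f' hf'
    have hP' := hf'.le
    obtain ⟨-, -, f, hf, hI⟩ := (hE P' f').1 hf'
    rw [hpre _ hP'] at hf hI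
    refine hf.congr fun x hx => ?_
    have h1 := hI x hx
    simp only [Function.comp]
    rw [h1, hg.kj _ (hf.mem hx)]

end

end Cfsg.Agent.H27.Fus
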