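import Mathlib
import Cfsg.Prelude.Def_FusionSystem
import Cfsg.Prelude.Def_FusionComponents
import Cfsg.Agent.H27_FusEss
import Cfsg.Agent.H27_FusNorm

/-! Direct products of fusion systems. -/

set_option autoImplicit false
set_option linter.all false
open Cfsg Cfsg.FusionSystem

namespace Cfsg.Agent.H27.Fus

open Cfsg.Agent.H27.Grp

variable {Ω₁ Ω₂ : Type*} [Group Ω₁] [Group Ω₂] {S₁ : Subgroup Ω₁} {S₂ : Subgroup Ω₂}

section prod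

variable {F₁ : FusionSystem S₁} {F₂ : FusionSystem S₂} {P Q R : Subgroup (Ω₁ × Ω₂)} {p : ℕ}

/-- first projection -/
abbrev p1 (P : Subgroup (Ω₁ × Ω₂)) : Subgroup Ω₁ := P.map (MonoidHom.fst Ω₁ Ω₂)
/-- second projection -/
abbrev p2 (P : Subgroup (Ω₁ × Ω₂)) : Subgroup Ω₂ := P.map (MonoidHom.snd Ω₁ Ω₂)

theorem mem_p1 {x : Ω₁ × Ω₂} (hx : x ∈ P) : x.1 ∈ p1 P := ⟨x, hx, rfl⟩
theorem mem_p2 {x : Ω₁ × Ω₂} (hx : x ∈ P) : x.2 ∈ p2 P := ⟨x, hx, rfl⟩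

/-- maps of the product -/
def PMap (F₁ : FusionSystem S₁) (F₂ : FusionSystem S₂) (P : Subgroup (Ω₁ × Ω₂)) (f : Ω₁ × Ω₂ → Ω₁ × Ω₂) : Prop :=
  P ≤ S₁.prod S₂ ∧ ∃ f₁ f₂, Map F₁ (p1 P) f₁ ∧ Map F₂ (p2 P) f₂ ∧ ∀ x ∈ P, f x = (f₁ x.1, f₂ x.2)

theorem isProductSystem_iff {E : FusionSystem (S₁.prod S₂)} :
    IsProductSystem F₁ F₂ E ↔ ∀ P f, Map E P f ↔ PMap F₁ F₂ P f := by
  constructor
  · intro h P f
    constructor
    · intro hf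
      obtain ⟨φ, hφ, hφf⟩ := id hf
      obtain ⟨hP, φ₁, h₁, φ₂, h₂, h3⟩ := (h P φ).1 hφ
      refine ⟨hP, tot φ₁, tot φ₂, map_tot h₁, map_tot h₂, fun x hx => ?_⟩
      rw [← hφf ⟨x, hx⟩, h3 ⟨x, hx⟩ (mem_p1 hx) (mem_p2 hx), tot_of_mem φ₁ (mem_p1 hx), tot_of_mem φ₂ (mem_p2 hx)]
    · rintro ⟨hP, f₁, f₂, hf₁, hf₂, h3⟩
      obtain ⟨φ₁, h₁, h₁'⟩ := id hf₁
      obtain ⟨φ₂, h₂, h₂'⟩ := id hf₂
      have hm : ∀ x ∈ P, ∀ y ∈ P, f (x * y) = f x * f y := by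
        intro x hx y hy
        rw [h3 _ (P.mul_mem hx hy), h3 x hx, h3 y hy, Prod.fst_mul, Prod.snd_mul, hf₁.mul (mem_p1 hx) (mem_p1 hy),
          hf₂.mul (mem_p2 hx) (mem_p2 hy)]
        rfl
      refine ⟨homOf P f hm, (h P _).2 ⟨hP, φ₁, h₁, φ₂, h₂, fun x a b => ?_⟩, fun x => rfl⟩
      rw [homOf_apply, h3 x x.2, h₁' ⟨_, a⟩, h₂' ⟨_, b⟩]
  · intro h P φ
    rw [hom_mem_iff_tot, h]
    refine and_congr_right fun hP => ?_
    constructor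
    · rintro ⟨f₁, f₂, ⟨φ₁, h₁, h₁'⟩, ⟨φ₂, h₂, h₂'⟩, h3⟩
      refine ⟨φ₁, h₁, φ₂, h₂, fun x a b => ?_⟩
      rw [← tot_apply φ x, h3 x x.2, h₁' ⟨_, a⟩, h₂' ⟨_, b⟩]
    · rintro ⟨φ₁, h₁, φ₂, h₂, h3⟩
      refine ⟨tot φ₁, tot φ₂, map_tot h₁, map_tot h₂, fun x hx => ?_⟩
      rw [tot_of_mem φ hx, h3 ⟨x, hx⟩ (mem_p1 hx) (mem_p2 hx), tot_of_mem φ₁ (mem_p1 hx), tot_of_mem φ₂ (mem_p2 hx)]

theorem PMap.mul {f : Ω₁ × Ω₂ → Ω₁ × Ω₂} (h : PMap F₁ F₂ P f) : ∀ x ∈ P, ∀ y ∈ P, f (x * y) = f x * f y := by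
  obtain ⟨hP, f₁, f₂, hf₁, hf₂, h3⟩ := h
  intro x hx y hy
  rw [h3 _ (P.mul_mem hx hy), h3 x hx, h3 y hy, Prod.fst_mul, Prod.snd_mul, hf₁.mul (mem_p1 hx) (mem_p1 hy),
    hf₂.mul (mem_p2 hx) (mem_p2 hy)]
  rfl

/-- the product system -/
def prodFS (F₁ : FusionSystem S₁) (F₂ : FusionSystem S₂) : FusionSystem (S₁.prod S₂) :=
  mkFS (S₁.prod S₂) (PMap F₁ F₂)
    (by
      rintro P f g ⟨hP, f₁, f₂, hf₁, hf₂, h3⟩ hfg
      exact ⟨hP, f₁, f₂, hf₁, hf₂, fun x hx => by rw [← hfg x hx, h3 x hx]⟩)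
    (by
      rintro P f ⟨hP, f₁, f₂, hf₁, hf₂, h3⟩
      exact ⟨hP, fun x hx => by
        rw [h3 x hx]; exact ⟨hf₁.mem (mem_p1 hx), hf₂.mem (mem_p2 hx)⟩⟩)
    (by
      rintro P f ⟨hP, f₁, f₂, hf₁, hf₂, h3⟩ x hx y hy hxy
      rw [h3 x hx, h3 y hy] at hxy
      exact Prod.ext (hf₁.inj (mem_p1 hx) (mem_p1 hy) (congrArg Prod.fst hxy))
        (hf₂.inj (mem_p2 hx) (mem_p2 hy) (congrArg Prod.snd hxy)))
    (by
      rintro P g hP hg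
      refine ⟨hP, _, _, map_conj F₁ ?_ hg.1, map_conj F₂ ?_ hg.2, fun x hx => rfl⟩
      · rintro _ ⟨x, hx, rfl⟩; exact (hP hx).1
      · rintro _ ⟨x, hx, rfl⟩; exact (hP hx).2)
    (by
      rintro P Q f g ⟨hP, f₁, f₂, hf₁, hf₂, h3⟩ ⟨hQ, g₁, g₂, hg₁, hg₂, h4⟩ hPQ
      refine ⟨hP, g₁ ∘ f₁, g₂ ∘ f₂, hg₁.comp hf₁ ?_, hg₂.comp hf₂ ?_, fun x hx => ?_⟩
      · rintro _ ⟨x, hx, rfl⟩
        have := hPQ x hx
        rw [h3 x hx] at this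
        exact mem_p1 this
      · rintro _ ⟨x, hx, rfl⟩
        have := hPQ x hx
        rw [h3 x hx] at this
        exact mem_p2 this
      · show g (f x) = _
        rw [h4 _ (hPQ x hx), h3 x hx]; rfl)
    (by
      rintro P f R ⟨hP, f₁, f₂, hf₁, hf₂, h3⟩ hm hR
      have e1 : im (p1 P) f₁ = p1 R := by
        ext y
        rw [hf₁.mem_im]
        constructor
        · rintro ⟨_, ⟨x, hx, rfl⟩, rfl⟩
          refine ⟨f x, (hR _).2 ⟨x, hx, rfl⟩, ?_⟩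
          rw [h3 x hx]; rfl
        · rintro ⟨z, hz, rfl⟩
          obtain ⟨x, hx, rfl⟩ := (hR z).1 hz
          exact ⟨x.1, mem_p1 hx, by rw [h3 x hx]; rfl⟩
      have e2 : im (p2 P) f₂ = p2 R := by
        ext y
        rw [hf₂.mem_im]
        constructor
        · rintro ⟨_, ⟨x, hx, rfl⟩, rfl⟩
          refine ⟨f x, (hR _).2 ⟨x, hx, rfl⟩, ?_⟩
          rw [h3 x hx]; rfl
        · rintro ⟨z, hz, rfl⟩
          obtain ⟨x, hx, rfl⟩ := (hR z).1 hz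
          exact ⟨x.2, mem_p2 hx, by rw [h3 x hx]; rfl⟩
      refine ⟨fun y => (finv (p1 P) f₁ y.1, finv (p2 P) f₂ y.2), ⟨?_, finv (p1 P) f₁, finv (p2 P) f₂, ?_, ?_,
        fun x _ => rfl⟩, fun x hx => ?_⟩
      · intro y hy
        obtain ⟨x, hx, rfl⟩ := (hR y).1 hy
        rw [h3 x hx]; exact ⟨hf₁.mem (mem_p1 hx), hf₂.mem (mem_p2 hx)⟩
      · rw [← e1]; exact hf₁.iso.symm.map
      · rw [← e2]; exact hf₂.iso.symm.map
      · show (finv (p1 P) f₁ (f x).1, finv (p2 P) f₂ (f x).2) = x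
        rw [h3 x hx, hf₁.iso.finv_left (mem_p1 hx), hf₂.iso.finv_left (mem_p2 hx)])

theorem map_prodFS {f : Ω₁ × Ω₂ → Ω₁ × Ω₂} : Map (prodFS F₁ F₂) P f ↔ PMap F₁ F₂ P f :=
  map_mkFS fun P f hf => hf.mul

theorem prodFS_isProduct : IsProductSystem F₁ F₂ (prodFS F₁ F₂) :=
  isProductSystem_iff.2 fun _ _ => map_prodFS

/-- componentwise action -/
noncomputable def actP {Q₁ : Subgroup Ω₁} {Q₂ : Subgroup Ω₂} (α : MulAut Q₁ × MulAut Q₂) (x : Ω₁ × Ω₂) : Ω₁ × Ω₂ :=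
  (totA α.1 x.1, totA α.2 x.2)

variable {Q₁ : Subgroup Ω₁} {Q₂ : Subgroup Ω₂}

theorem actP_mem {α : MulAut Q₁ × MulAut Q₂} {x : Ω₁ × Ω₂} (hx : x ∈ Q₁.prod Q₂) : actP α x ∈ Q₁.prod Q₂ := by
  refine ⟨?_, ?_⟩
  · show totA α.1 x.1 ∈ Q₁
    rw [totA_of_mem _ hx.1]; exact SetLike.coe_mem _
  · show totA α.2 x.2 ∈ Q₂
    rw [totA_of_mem _ hx.2]; exact SetLike.coe_mem _

theorem actP_mul (α β : MulAut Q₁ × MulAut Q₂) {x : Ω₁ × Ω₂} (hx : x ∈ Q₁.prod Q₂) :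
    actP (α * β) x = actP α (actP β x) :=
  Prod.ext (totA_mul _ _ hx.1) (totA_mul _ _ hx.2)

theorem actP_one {x : Ω₁ × Ω₂} (hx : x ∈ Q₁.prod Q₂) : actP (1 : MulAut Q₁ × MulAut Q₂) x = x :=
  Prod.ext (totA_one hx.1) (totA_one hx.2)

theorem actP_inv (α : MulAut Q₁ × MulAut Q₂) {x : Ω₁ × Ω₂} (hx : x ∈ Q₁.prod Q₂) :
    actP α⁻¹ (actP α x) = x := by
  rw [← actP_mul _ _ hx, inv_mul_cancel, actP_one hx]

theorem actP_inv' (α : MulAut Q₁ × MulAut Q₂) {x : Ω₁ × Ω₂} (hx : x ∈ Q₁.prod Q₂) :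
    actP α (actP α⁻¹ x) = x := by
  rw [← actP_mul _ _ hx, mul_inv_cancel, actP_one hx]

/-- stabilizer of `Q` in `Aut Q₁ × Aut Q₂` -/
def StP (hQ : Q ≤ Q₁.prod Q₂) : Subgroup (MulAut Q₁ × MulAut Q₂) where
  carrier := {α | ∀ x ∈ Q, actP α x ∈ Q ∧ actP α⁻¹ x ∈ Q}
  one_mem' := fun x hx => by
    rw [inv_one, actP_one (hQ hx)]; exact ⟨hx, hx⟩
  mul_mem' := by
    intro a b ha hb x hx
    rw [actP_mul _ _ (hQ hx), mul_inv_rev, actP_mul _ _ (hQ hx)]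
    exact ⟨(ha _ (hb x hx).1).1, (hb _ (ha x hx).2).2⟩
  inv_mem' := by
    intro a ha x hx
    rw [inv_inv]; exact ⟨(ha x hx).2, (ha x hx).1⟩

theorem mem_StP {hQ : Q ≤ Q₁.prod Q₂} {α : MulAut Q₁ × MulAut Q₂} :
    α ∈ StP hQ ↔ ∀ x ∈ Q, actP α x ∈ Q ∧ actP α⁻¹ x ∈ Q := Iff.rfl

/-- restriction to `Q` -/
noncomputable def resQ (hQ : Q ≤ Q₁.prod Q₂) : StP hQ →* MulAut Q where
  toFun α :=
    { toFun := fun x => ⟨actP α.1 x, (α.2 x x.2).1⟩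
      invFun := fun x => ⟨actP (α.1)⁻¹ x, (α.2 x x.2).2⟩
      left_inv := fun x => Subtype.ext (actP_inv _ (hQ x.2))
      right_inv := fun x => Subtype.ext (actP_inv' _ (hQ x.2))
      map_mul' := fun x y => by
        apply Subtype.ext
        have hx := hQ x.2
        have hy := hQ y.2
        have hxy := hQ (x * y).2
        refine Prod.ext ?_ ?_
        · show totA (α.1).1 ((x : Ω₁ × Ω₂).1 * (y : Ω₁ × Ω₂).1) = totA (α.1).1 (x : Ω₁ × Ω₂).1 * totA (α.1).1 (y : Ω₁ × Ω₂).1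
          rw [totA_of_mem _ hx.1, totA_of_mem _ hy.1, totA_of_mem _ (Q₁.mul_mem hx.1 hy.1), ← Subgroup.coe_mul, ← map_mul]
          rfl
        · show totA (α.1).2 ((x : Ω₁ × Ω₂).2 * (y : Ω₁ × Ω₂).2) = totA (α.1).2 (x : Ω₁ × Ω₂).2 * totA (α.1).2 (y : Ω₁ × Ω₂).2
          rw [totA_of_mem _ hx.2, totA_of_mem _ hy.2, totA_of_mem _ (Q₂.mul_mem hx.2 hy.2), ← Subgroup.coe_mul, ← map_mul]
          rfl }
  map_one' := MulEquiv.ext fun x => Subtype.ext (actP_one (hQ x.2))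
  map_mul' α β := MulEquiv.ext fun x => Subtype.ext (actP_mul _ _ (hQ x.2))

theorem resQ_apply {hQ : Q ≤ Q₁.prod Q₂} (α : StP hQ) (x : Q) : (resQ hQ α x : Ω₁ × Ω₂) = actP α.1 x := rfl

theorem actP_cj {s : Ω₁ × Ω₂} (h1 : s.1 ∈ Subgroup.normalizer (Q₁ : Set Ω₁)) (h2 : s.2 ∈ Subgroup.normalizer (Q₂ : Set Ω₂))
    {x : Ω₁ × Ω₂} (hx : x ∈ Q₁.prod Q₂) : actP (cjA Q₁ s.1 h1, cjA Q₂ s.2 h2) x = s * x * s⁻¹ := by
  refine Prod.ext ?_ ?_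
  · show totA _ x.1 = _
    rw [totA_of_mem _ hx.1]; rfl
  · show totA _ x.2 = _
    rw [totA_of_mem _ hx.2]; rfl

theorem map_actP {E : FusionSystem (S₁.prod S₂)} (hE : IsProductSystem F₁ F₂ E) (hQ : Q ≤ Q₁.prod Q₂)
    (hQ₁ : Q₁ ≤ S₁) (hQ₂ : Q₂ ≤ S₂)
    {α : MulAut Q₁ × MulAut Q₂} (hα : α ∈ (F₁.autGroup Q₁).prod (F₂.autGroup Q₂)) : Map E Q (actP α) := by
  rw [isProductSystem_iff.1 hE]
  have h1 := ((mem_autGroup_iff hQ₁).1 hα.1).map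
  have h2 := ((mem_autGroup_iff hQ₂).1 hα.2).map
  refine ⟨hQ.trans (Subgroup.prod_mono hQ₁ hQ₂), totA α.1, totA α.2, h1.mono ?_, h2.mono ?_, fun x _ => rfl⟩
  · rintro _ ⟨x, hx, rfl⟩; exact (hQ hx).1
  · rintro _ ⟨x, hx, rfl⟩; exact (hQ hx).2

theorem map_resQ_aut {E : FusionSystem (S₁.prod S₂)} (hE : IsProductSystem F₁ F₂ E) (hQ : Q ≤ Q₁.prod Q₂)
    (hQ₁ : Q₁ ≤ S₁) (hQ₂ : Q₂ ≤ S₂) (e1 : p1 Q = Q₁) (e2 : p2 Q = Q₂) :
    (((F₁.autGroup Q₁).prod (F₂.autGroup Q₂)).subgroupOf (StP hQ)).map (resQ hQ) = E.autGroup Q := by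
  have hQS : Q ≤ S₁.prod S₂ := hQ.trans (Subgroup.prod_mono hQ₁ hQ₂)
  ext β
  constructor
  · rintro ⟨α, hα, rfl⟩
    exact mem_autGroup_of (map_actP hE hQ hQ₁ hQ₂ (show (α : MulAut Q₁ × MulAut Q₂) ∈ _ from hα)) fun x => rfl
  · intro hβ
    have h1 := (mem_autGroup_iff hQS).1 hβ
    obtain ⟨-, f₁, f₂, hf₁, hf₂, h3⟩ := (isProductSystem_iff.1 hE _ _).1 h1.map
    rw [e1] at hf₁
    rw [e2] at hf₂
    have hi1 : Iso F₁ Q₁ Q₁ f₁ := by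
      refine ⟨hf₁, fun x hx => ?_, fun y hy => ?_⟩
      · rw [← e1] at hx ⊢
        obtain ⟨z, hz, rfl⟩ := hx
        have := mem_p1 (h1.maps z hz)
        rw [h3 z hz] at this; exact this
      · rw [← e1] at hy
        obtain ⟨z, hz, rfl⟩ := hy
        obtain ⟨w, hw, rfl⟩ := h1.surj z hz
        refine ⟨w.1, by rw [← e1]; exact mem_p1 hw, ?_⟩
        rw [h3 w hw]; rfl
    have hi2 : Iso F₂ Q₂ Q₂ f₂ := by
      refine ⟨hf₂, fun x hx => ?_, fun y hy => ?_⟩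
      · rw [← e2] at hx ⊢
        obtain ⟨z, hz, rfl⟩ := hx
        have := mem_p2 (h1.maps z hz)
        rw [h3 z hz] at this; exact this
      · rw [← e2] at hy
        obtain ⟨z, hz, rfl⟩ := hy
        obtain ⟨w, hw, rfl⟩ := h1.surj z hz
        refine ⟨w.2, by rw [← e2]; exact mem_p2 hw, ?_⟩
        rw [h3 w hw]; rfl
    have key : ∀ x ∈ Q, actP (hi1.aut, hi2.aut) x = totA β x := by
      intro x hx
      rw [h3 x hx]
      refine Prod.ext ?_ ?_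
      · show totA _ x.1 = _
        rw [totA_of_mem _ (hQ hx).1]; rfl
      · show totA _ x.2 = _
        rw [totA_of_mem _ (hQ hx).2]; rfl
    have hst : (hi1.aut, hi2.aut) ∈ StP hQ := by
      intro x hx
      constructor
      · rw [key x hx]; exact h1.maps x hx
      · obtain ⟨w, hw, rfl⟩ := h1.surj x hx
        rw [← key w hw, actP_inv _ (hQ hw)]; exact hw
    refine ⟨⟨_, hst⟩, ⟨hi1.aut_mem, hi2.aut_mem⟩, ?_⟩
    apply MulEquiv.ext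
    intro x
    apply Subtype.ext
    rw [resQ_apply]
    show actP (hi1.aut, hi2.aut) x = _
    rw [key x x.2, totA_apply]

theorem map_resQ_inn [Finite S₁] [Finite S₂] (hQ : Q ≤ Q₁.prod Q₂)
    (hQ₁ : Q₁ ≤ S₁) (hQ₂ : Q₂ ≤ S₂) (e1 : p1 Q = Q₁) (e2 : p2 Q = Q₂) :
    (((autInducedBy S₁ Q₁).prod (autInducedBy S₂ Q₂)).subgroupOf (StP hQ)).map (resQ hQ) =
      autInducedBy (S₁.prod S₂) Q := by
  have hQS : Q ≤ S₁.prod S₂ := hQ.trans (Subgroup.prod_mono hQ₁ hQ₂)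
  ext β
  constructor
  · rintro ⟨α, hα, rfl⟩
    obtain ⟨s₁, hs₁, h1⟩ := mem_autInducedBy.1 hα.1
    obtain ⟨s₂, hs₂, h2⟩ := mem_autInducedBy.1 hα.2
    refine mem_autInducedBy.2 ⟨(s₁, s₂), ⟨hs₁, hs₂⟩, fun x => ?_⟩
    rw [resQ_apply]
    have hx := hQ x.2
    refine Prod.ext ?_ ?_
    · show totA _ (x : Ω₁ × Ω₂).1 = _
      rw [totA_of_mem _ hx.1]; exact h1 ⟨_, hx.1⟩
    · show totA _ (x : Ω₁ × Ω₂).2 = _
      rw [totA_of_mem _ hx.2]; exact h2 ⟨_, hx.2⟩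
  · intro hβ
    obtain ⟨s, hs, hsβ⟩ := mem_autInducedBy.1 hβ
    have hsN := autInducedBy_norm (K := S₁.prod S₂) hsβ
    have h1 : s.1 ∈ normalizerIn S₁ Q₁ := by
      refine mem_nrm_of_forall hQ₁ hs.1 fun y hy => ?_
      rw [← e1] at hy ⊢
      obtain ⟨x, hx, rfl⟩ := hy
      exact mem_p1 ((Subgroup.mem_normalizer_iff.1 hsN x).1 hx)
    have h2 : s.2 ∈ normalizerIn S₂ Q₂ := by
      refine mem_nrm_of_forall hQ₂ hs.2 fun y hy => ?_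
      rw [← e2] at hy ⊢
      obtain ⟨x, hx, rfl⟩ := hy
      exact mem_p2 ((Subgroup.mem_normalizer_iff.1 hsN x).1 hx)
    have hst : (cjA Q₁ s.1 h1.2, cjA Q₂ s.2 h2.2) ∈ StP hQ := by
      intro x hx
      have h3 := (Subgroup.mem_normalizer_iff.1 hsN x).1 hx
      constructor
      · rw [actP_cj _ _ (hQ hx)]; exact h3
      · have h4 : s⁻¹ * x * s ∈ Q := (Subgroup.mem_normalizer_iff.1 hsN _).2 (by simpa [mul_assoc] using hx)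
        have h5 : x = actP (cjA Q₁ s.1 h1.2, cjA Q₂ s.2 h2.2) (s⁻¹ * x * s) := by
          rw [actP_cj _ _ (hQ h4)]; group
        rw [h5, actP_inv _ (hQ h4)]; exact h4
    refine ⟨⟨_, hst⟩, ⟨cjA_mem _ h1.1, cjA_mem _ h2.1⟩, ?_⟩
    apply MulEquiv.ext
    intro x
    apply Subtype.ext
    rw [resQ_apply, hsβ]
    exact actP_cj _ _ (hQ x.2)

theorem isPGroup_prod {G₁ G₂ : Type*} [Group G₁] [Group G₂] {A : Subgroup G₁} {B : Subgroup G₂}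
    (hA : IsPGroup p A) (hB : IsPGroup p B) : IsPGroup p (A.prod B) := by
  rintro ⟨⟨a, b⟩, ha, hb⟩
  obtain ⟨k, hk⟩ := hA ⟨a, ha⟩
  obtain ⟨l, hl⟩ := hB ⟨b, hb⟩
  refine ⟨k + l, Subtype.ext (Prod.ext ?_ ?_)⟩
  · show a ^ p ^ (k + l) = 1
    have := congrArg Subtype.val hk
    have h1 : a ^ p ^ k = 1 := this
    rw [pow_add, pow_mul, h1, one_pow]
  · show b ^ p ^ (k + l) = 1
    have := congrArg Subtype.val hl
    have h1 : b ^ p ^ l = 1 := this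
    rw [pow_add, mul_comm, pow_mul, h1, one_pow]

theorem isSyl_prod [Fact p.Prime] {G₁ G₂ : Type*} [Group G₁] [Group G₂] {A T : Subgroup G₁} {B U : Subgroup G₂}
    (hA : IsSyl p T A) (hB : IsSyl p U B) : IsSyl p (T.prod U) (A.prod B) := by
  refine ⟨Subgroup.prod_mono hA.le hB.le, isPGroup_prod hA.isPGroup hB.isPGroup, ?_⟩
  have h : (T.prod U).relIndex (A.prod B) = T.relIndex A * U.relIndex B := by
    unfold Subgroup.relIndex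
    have e : ((T.prod U).subgroupOf (A.prod B)) =
        ((T.subgroupOf A).prod (U.subgroupOf B)).comap (Subgroup.prodEquiv A B).toMonoidHom := by
      ext ⟨x, hx⟩
      rfl
    rw [e, Subgroup.index_comap_of_surjective _ (Subgroup.prodEquiv A B).surjective, Subgroup.index_prod]
  rw [h, (Fact.out : p.Prime).dvd_mul]
  exact not_or.2 ⟨hA.2.2, hB.2.2⟩

theorem finite_prodS [Finite S₁] [Finite S₂] : Finite (S₁.prod S₂) :=
  Finite.of_equiv _ (Subgroup.prodEquiv S₁ S₂).symm.toEquiv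

theorem prod_saturated [Fact p.Prime] [Finite S₁] [Finite S₂] (h₁ : IsPGroup p S₁) (h₂ : IsPGroup p S₂)
    (hF₁ : F₁.IsSaturated p) (hF₂ : F₂.IsSaturated p) {E : FusionSystem (S₁.prod S₂)}
    (hE : IsProductSystem F₁ F₂ E) : E.IsSaturated p := by
  have hfS : Finite (S₁.prod S₂) := finite_prodS
  intro P hP
  have hP1 : p1 P ≤ S₁ := by rintro _ ⟨x, hx, rfl⟩; exact (hP hx).1
  have hP2 : p2 P ≤ S₂ := by rintro _ ⟨x, hx, rfl⟩; exact (hP hx).2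
  obtain ⟨Q₁, c1, hQ₁⟩ := exists_fullyNormalized F₁ hP1
  obtain ⟨Q₂, c2, hQ₂⟩ := exists_fullyNormalized F₂ hP2
  obtain ⟨g₁, hg₁⟩ := isConj_iff.1 c1
  obtain ⟨g₂, hg₂⟩ := isConj_iff.1 c2
  have hfQ₁ : Finite Q₁ := finite_of_le hQ₁.1
  have hfQ₂ : Finite Q₂ := finite_of_le hQ₂.1
  have hg : Map E P (fun x => (g₁ x.1, g₂ x.2)) :=
    (isProductSystem_iff.1 hE _ _).2 ⟨hP, g₁, g₂, hg₁.map, hg₂.map, fun x _ => rfl⟩
  set Q0 := im P (fun x : Ω₁ × Ω₂ => (g₁ x.1, g₂ x.2)) with hQ0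
  have hQ0le : Q0 ≤ Q₁.prod Q₂ := (im_le_iff hg).2 fun x hx => ⟨hg₁.maps _ (mem_p1 hx), hg₂.maps _ (mem_p2 hx)⟩
  have e01 : p1 Q0 = Q₁ := by
    apply le_antisymm
    · rintro _ ⟨x, hx, rfl⟩; exact (hQ0le hx).1
    · intro y hy
      obtain ⟨_, ⟨x, hx, rfl⟩, rfl⟩ := hg₁.surj y hy
      exact ⟨_, hg.apply_mem_im hx, rfl⟩
  have e02 : p2 Q0 = Q₂ := by
    apply le_antisymm
    · rintro _ ⟨x, hx, rfl⟩; exact (hQ0le hx).2
    · intro y hy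
      obtain ⟨_, ⟨x, hx, rfl⟩, rfl⟩ := hg₂.surj y hy
      exact ⟨_, hg.apply_mem_im hx, rfl⟩
  have hA1 := (isFullyAutomized_iff.1 (fn_automized h₁ hF₁ hQ₁)).2
  have hA2 := (isFullyAutomized_iff.1 (fn_automized h₂ hF₂ hQ₂)).2
  have hT := isSyl_prod hA1 hA2
  set A := (F₁.autGroup Q₁).prod (F₂.autGroup Q₂) with hA
  set T := (autInducedBy S₁ Q₁).prod (autInducedBy S₂ Q₂) with hTdef
  obtain ⟨X, hX⟩ := exists_isSyl (p := p) (A ⊓ StP hQ0le)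
  obtain ⟨α, hα, hαX⟩ := hT.conj (hX.le.trans inf_le_left) hX.isPGroup
  have hαm : Map E Q0 (actP α) := map_actP hE hQ0le hQ₁.1 hQ₂.1 hα
  set Q := im Q0 (actP α) with hQ
  have hQle : Q ≤ Q₁.prod Q₂ := (im_le_iff hαm).2 fun x hx => actP_mem (hQ0le hx)
  have e1 : p1 Q = Q₁ := by
    apply le_antisymm
    · rintro _ ⟨x, hx, rfl⟩; exact (hQle hx).1
    · intro y hy
      have h3 : totA (α.1)⁻¹ y ∈ Q₁ := by rw [totA_of_mem _ hy]; exact SetLike.coe_mem _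
      have h4 : totA (α.1)⁻¹ y ∈ p1 Q0 := e01.symm.le h3
      obtain ⟨x, hx, hxy⟩ := h4
      refine ⟨_, hαm.apply_mem_im hx, ?_⟩
      show totA α.1 x.1 = y
      have hxy' : x.1 = totA (α.1)⁻¹ y := hxy
      rw [hxy', ← totA_mul _ _ hy, mul_inv_cancel, totA_one hy]
  have e2 : p2 Q = Q₂ := by
    apply le_antisymm
    · rintro _ ⟨x, hx, rfl⟩; exact (hQle hx).2
    · intro y hy
      have h3 : totA (α.2)⁻¹ y ∈ Q₂ := by rw [totA_of_mem _ hy]; exact SetLike.coe_mem _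
      have h4 : totA (α.2)⁻¹ y ∈ p2 Q0 := e02.symm.le h3
      obtain ⟨x, hx, hxy⟩ := h4
      refine ⟨_, hαm.apply_mem_im hx, ?_⟩
      show totA α.2 x.2 = y
      have hxy' : x.2 = totA (α.2)⁻¹ y := hxy
      rw [hxy', ← totA_mul _ _ hy, mul_inv_cancel, totA_one hy]
  have hcjSt : cj α (StP hQ0le) = StP hQle := by
    have hQ0' : ∀ y ∈ Q, actP α⁻¹ y ∈ Q0 := by
      intro y hy
      obtain ⟨x, hx, rfl⟩ := hαm.mem_im.1 hy
      rw [actP_inv _ (hQ0le hx)]; exact hx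
    apply le_antisymm
    · rw [cj_le]
      intro a ha y hy
      have hy' := hQ0' y hy
      have hyQ := hQle hy
      constructor
      · rw [mul_assoc, actP_mul _ _ hyQ, actP_mul _ _ hyQ]
        exact hαm.apply_mem_im (ha _ hy').1
      · rw [mul_inv_rev, mul_inv_rev, inv_inv, actP_mul _ _ hyQ, actP_mul _ _ hyQ]
        exact hαm.apply_mem_im (ha _ hy').2
    · intro a ha
      refine ⟨α⁻¹ * a * α, ?_, ?_⟩
      · intro x hx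
        have hxQ := hQ0le hx
        have hx' := hαm.apply_mem_im hx
        constructor
        · rw [mul_assoc, actP_mul _ _ hxQ, actP_mul _ _ hxQ]
          exact hQ0' _ (ha _ hx').1
        · rw [mul_inv_rev, mul_inv_rev, inv_inv, actP_mul _ _ hxQ, actP_mul _ _ hxQ]
          exact hQ0' _ (ha _ hx').2
      · show α * (α⁻¹ * a * α) * α⁻¹ = a
        group
  have hsyl : IsSyl p (T ⊓ StP hQle) (A ⊓ StP hQle) := by
    have h1 := hX.cj α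
    rw [cj_inf, cj_eq_of_mem hα, hcjSt] at h1
    have h2 : cj α X ≤ T ⊓ StP hQle := le_inf hαX (h1.le.trans inf_le_right)
    have hfA : Finite ↥(A ⊓ StP hQle) := inferInstance
    have h3 := h1.eq_of_le (inf_le_inf_right _ hT.le) (hT.isPGroup.to_le inf_le_left) h2
    rwa [h3] at h1
  have hconj : E.IsConj P Q := isConj_trans hg.iso.isConj hαm.iso.isConj
  refine ⟨Q, hconj, ?_, ?_⟩
  · rw [isFullyAutomized_iff]
    refine ⟨hαm.im_le, ?_⟩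
    have h3 := (IsSyl.subgroupOf hsyl).map (resQ hQle)
    rwa [map_resQ_aut hE hQle hQ₁.1 hQ₂.1 e1 e2, map_resQ_inn hQle hQ₁.1 hQ₂.1 e1 e2] at h3
  · rw [isReceptive_iff]
    refine ⟨hαm.im_le, fun R k hk => ?_⟩
    obtain ⟨hR, k₁, k₂, hk₁, hk₂, hkk⟩ := (isProductSystem_iff.1 hE _ _).1 hk.map
    have hi1 : Iso F₁ (p1 R) Q₁ k₁ := by
      refine ⟨hk₁, ?_, fun y hy => ?_⟩
      · rintro _ ⟨z, hz, rfl⟩
        have := mem_p1 (hk.maps z hz)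
        rw [hkk z hz, e1] at this; exact this
      · rw [← e1] at hy
        obtain ⟨z, hz, rfl⟩ := hy
        obtain ⟨w, hw, rfl⟩ := hk.surj z hz
        exact ⟨w.1, mem_p1 hw, by rw [hkk w hw]; rfl⟩
    have hi2 : Iso F₂ (p2 R) Q₂ k₂ := by
      refine ⟨hk₂, ?_, fun y hy => ?_⟩
      · rintro _ ⟨z, hz, rfl⟩
        have := mem_p2 (hk.maps z hz)
        rw [hkk z hz, e2] at this; exact this
      · rw [← e2] at hy
        obtain ⟨z, hz, rfl⟩ := hy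
        obtain ⟨w, hw, rfl⟩ := hk.surj z hz
        exact ⟨w.2, mem_p2 hw, by rw [hkk w hw]; rfl⟩
    obtain ⟨g₁', hg₁', hgk₁⟩ := receptive_ext (fn_receptive h₁ hF₁ hQ₁) hi1
    obtain ⟨g₂', hg₂', hgk₂⟩ := receptive_ext (fn_receptive h₂ hF₂ hQ₂) hi2
    have hn1 : p1 (ext (S₁.prod S₂) R k) ≤ ext S₁ (p1 R) k₁ := by
      rintro _ ⟨x, hx, rfl⟩
      obtain ⟨hxS, hxN, t, ht, hxt⟩ := mem_ext.1 hx
      have hxn : x.1 ∈ normalizerIn S₁ (p1 R) := by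
        refine mem_nrm_of_forall hk₁.le hxS.1 ?_
        rintro _ ⟨z, hz, rfl⟩
        exact mem_p1 ((Subgroup.mem_normalizer_iff.1 hxN z).1 hz)
      refine mem_ext.2 ⟨hxS.1, hxn.2, t.1, ht.1, ?_⟩
      rintro _ ⟨z, hz, rfl⟩
      have h5 := congrArg Prod.fst (hxt z hz)
      rw [hkk z hz, hkk _ ((Subgroup.mem_normalizer_iff.1 hxN z).1 hz)] at h5
      exact h5
    have hn2 : p2 (ext (S₁.prod S₂) R k) ≤ ext S₂ (p2 R) k₂ := by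
      rintro _ ⟨x, hx, rfl⟩
      obtain ⟨hxS, hxN, t, ht, hxt⟩ := mem_ext.1 hx
      have hxn : x.2 ∈ normalizerIn S₂ (p2 R) := by
        refine mem_nrm_of_forall hk₂.le hxS.2 ?_
        rintro _ ⟨z, hz, rfl⟩
        exact mem_p2 ((Subgroup.mem_normalizer_iff.1 hxN z).1 hz)
      refine mem_ext.2 ⟨hxS.2, hxn.2, t.2, ht.2, ?_⟩
      rintro _ ⟨z, hz, rfl⟩
      have h5 := congrArg Prod.snd (hxt z hz)
      rw [hkk z hz, hkk _ ((Subgroup.mem_normalizer_iff.1 hxN z).1 hz)] at h5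
      exact h5
    refine ⟨fun x => (g₁' x.1, g₂' x.2), (isProductSystem_iff.1 hE _ _).2 ⟨ext_le, g₁', g₂', hg₁'.mono hn1, hg₂'.mono hn2,
      fun x _ => rfl⟩, fun x hx => ?_⟩
    rw [hkk x hx]
    exact Prod.ext (hgk₁ _ (mem_p1 hx)) (hgk₂ _ (mem_p2 hx))

end prod

end Cfsg.Agent.H27.Fus
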