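import Mathlib
import Cfsg.Agent.H27_Emb4
import Cfsg.Agent.H27_FusReal
import Cfsg.Agent.H27_FusGrp

/-! Local models in a finite group. -/

universe u v w
namespace Cfsg.Agent.H27.Fus

open Cfsg Cfsg.Agent.H27.Grp FusionSystem

section gmod

variable {G : Type u} [Group G] [Finite G] {S R : Subgroup G} {p : ℕ} [Fact p.Prime]

omit [Finite G] [Fact p.Prime] in
theorem nrmIn_le_normalizer (S R : Subgroup G) : normalizerIn S R ≤ Subgroup.normalizer (R : Set G) :=
  fun _ hx => (inf_le_right : S ⊓ Subgroup.normalizer (R : Set G) ≤ _) hx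

theorem grp_local_realized {E : FusionSystem (normalizerIn S R)} (hR : R ≤ S)
    (hE : (groupFusionSystem S).IsNormalizerSystem R E) :
    E.IsRealizedBy (Subgroup.inclusion (nrmIn_le_normalizer S R)) := by
  rw [isRealizedBy_iff]
  refine ⟨Subgroup.inclusion_injective _, ?_⟩
  intro P f hP hf hmul
  have hval : ∀ x (hx : x ∈ normalizerIn S R), ((tt (Subgroup.inclusion (nrmIn_le_normalizer S R)) x : Subgroup.normalizer (R : Set G)) : G) = x := by
    intro x hx
    rw [tt_of_mem _ hx]
    rfl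
  rw [nsys_map hE]
  constructor
  · rintro ⟨-, -, g', hg', hgf, him⟩
    obtain ⟨-, -, g, hg⟩ := map_gfs.1 hg'
    have hgn : g ∈ Subgroup.normalizer (R : Set G) := by
      have h1 : Grp.cj g R ≤ R := by
        rw [cj_le]
        intro a ha
        have h2 := (hg'.mono (le_sup_right : R ≤ P ⊔ R)).apply_mem_im ha
        rw [him, hg a (Subgroup.mem_sup_right ha)] at h2
        exact h2
      have h2 : Grp.cj g R = R := eq_of_le_of_card_le h1 (by rw [card_cj])
      rw [Subgroup.mem_normalizer_iff]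
      intro x
      constructor
      · intro hx
        exact h1 (conj_mem_cj hx)
      · intro hx
        rw [← h2] at hx
        obtain ⟨a, ha, hax⟩ := mem_cj.1 hx
        have : a = x := mul_left_cancel (mul_right_cancel hax)
        rwa [← this]
    refine ⟨⟨g, hgn⟩, fun x hx => ?_⟩
    apply Subtype.ext
    rw [hval _ (hf x hx), ← hgf x hx, hg x (Subgroup.mem_sup_left hx)]
    simp only [Subgroup.coe_mul, Subgroup.coe_inv, hval _ (hP hx)]
  · rintro ⟨⟨g, hgn⟩, hg⟩
    have hg' : ∀ x ∈ P, f x = g * x * g⁻¹ := by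
      intro x hx
      have := congrArg Subtype.val (hg x hx)
      rw [hval _ (hf x hx)] at this
      simp only [Subgroup.coe_mul, Subgroup.coe_inv, hval _ (hP hx)] at this
      exact this
    refine ⟨hP, hf, fun x => g * x * g⁻¹, ?_, fun x hx => (hg' x hx).symm, ?_⟩
    · rw [map_gfs]
      refine ⟨sup_le (hP.trans nrm_le) hR, ?_, g, fun _ _ => rfl⟩
      have h1 : Grp.cj g (P ⊔ R) ≤ S := by
        have : Grp.cj g (P ⊔ R) = Grp.cj g P ⊔ Grp.cj g R := Subgroup.map_sup _ _ _
        rw [this]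
        refine sup_le (cj_le.2 fun a ha => ?_) (cj_le.2 fun a ha => hR ((Subgroup.mem_normalizer_iff.1 hgn a).1 ha))
        rw [← hg' a ha]
        exact nrm_mem_S (hf a ha)
      intro x hx
      exact h1 (conj_mem_cj hx)
    · have h1 : im R (fun x => g * x * g⁻¹) = Grp.cj g R := by
        apply le_antisymm
        · rw [im, Subgroup.closure_le]
          rintro _ ⟨x, hx, rfl⟩
          exact conj_mem_cj hx
        · rintro _ ⟨x, hx, rfl⟩
          exact Subgroup.subset_closure ⟨x, hx, rfl⟩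
      rw [h1]
      apply eq_of_le_of_card_le
      · rw [cj_le]
        intro a ha
        exact (Subgroup.mem_normalizer_iff.1 hgn a).1 ha
      · rw [card_cj]

theorem grp_local_model (hR : R ≤ S)
    (hfn : IsSyl p (normalizerIn S R) (Subgroup.normalizer (R : Set G)))
    (hc : ∀ x ∈ S, (∀ y ∈ R, x * y = y * x) → x ∈ R) {E : FusionSystem (normalizerIn S R)}
    (hE : (groupFusionSystem S).IsNormalizerSystem R E) :
    ∃ (W : Subgroup ↥(Subgroup.normalizer (R : Set G))) (_ : W.Normal)
      (ι : normalizerIn S R →* ↥(Subgroup.normalizer (R : Set G)) ⧸ W),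
      (Nat.card W).Coprime p ∧ E.IsModel p (↥(Subgroup.normalizer (R : Set G)) ⧸ W) ι := by
  set N := Subgroup.normalizer (R : Set G) with hN
  have hle : normalizerIn S R ≤ N := nrmIn_le_normalizer S R
  have hRp : IsPGroup p R := hfn.isPGroup.to_le (le_nrm hR)
  have hreal : E.IsRealizedBy (Subgroup.inclusion hle) := grp_local_realized hR hE
  have hrange : (Subgroup.inclusion hle).range = (normalizerIn S R).subgroupOf N := by
    ext x
    constructor
    · rintro ⟨y, rfl⟩
      exact y.2
    · intro hx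
      exact ⟨⟨x, hx⟩, rfl⟩
  have hsyl : IsSyl p (Subgroup.inclusion hle).range ⊤ := by
    rw [isSyl_top_iff, hrange]
    exact (isSyl_iff hle).1 hfn
  haveI hRn : (R.subgroupOf N).Normal := Subgroup.normal_in_normalizer
  obtain ⟨W, hWn, -, hWT, hW⟩ := QM (Q₁ := ⊥) (P₁ := R.subgroupOf N) hsyl bot_le (by
      rw [hrange]
      intro x hx
      exact le_nrm hR hx) (by
      intro t ht hcom
      rw [hrange] at ht
      have ht' : (t : G) ∈ normalizerIn S R := ht
      refine hc t (nrm_mem_S ht') ?_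
      intro y hy
      have hyN : y ∈ N := hle (le_nrm hR hy)
      have h1 := hcom ⟨y, hyN⟩ hy
      rw [Subgroup.mem_bot] at h1
      have h2 := congrArg Subtype.val h1
      simp only [Subgroup.coe_mul, Subgroup.coe_inv, Subgroup.coe_one] at h2
      have h3 := mul_inv_eq_one.1 h2
      exact mul_inv_eq_iff_eq_mul.1 h3)
  have hWp : (Nat.card W).Coprime p := by
    have h1 : IsSyl p ((Subgroup.inclusion hle).range ⊓ W) W := hsyl.inf le_top (by
      rw [Subgroup.normalizer_eq_top])
    have h2 : (Subgroup.inclusion hle).range ⊓ W = ⊥ := by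
      rw [eq_bot_iff]
      rintro x ⟨hx1, hx2⟩
      exact hWT x hx2 hx1
    rw [h2] at h1
    have h3 := h1.2.2
    rw [Subgroup.relIndex_bot_left] at h3
    exact ((Nat.Prime.coprime_iff_not_dvd Fact.out).2 h3).symm
  obtain ⟨h1, h2⟩ := realized_quotient hreal hsyl W hWp
  refine ⟨W, hWn, _, hWp, inferInstance, h1, isSyl_top_iff.1 h2, ?_⟩
  -- the image of `R`
  have hRO : (R.subgroupOf N).map (QuotientGroup.mk' W) ≤ pCore p (N ⧸ W) := by
    apply le_pCore
    · exact Subgroup.Normal.map hRn _ (QuotientGroup.mk'_surjective W)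
    · apply IsPGroup.map
      apply isPGroup_of_map_injective N.subtype N.subtype_injective
      exact hRp.to_le (by rintro _ ⟨x, hx, rfl⟩; exact hx)
  intro x hx
  obtain ⟨l, rfl⟩ := QuotientGroup.mk'_surjective W x
  obtain ⟨z, hz, hzl⟩ := hW l (by
    intro y hy
    have h3 := Subgroup.mem_centralizer_iff.1 hx _ (hRO ⟨y, hy, rfl⟩)
    rw [← QuotientGroup.eq_one_iff]
    have h4 : ((l * y * l⁻¹ * y⁻¹ : N) : N ⧸ W) = (l : N ⧸ W) * (y : N ⧸ W) * (l : N ⧸ W)⁻¹ * (y : N ⧸ W)⁻¹ := rfl
    rw [h4]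
    have h5 : (y : N ⧸ W) * (l : N ⧸ W) = (l : N ⧸ W) * (y : N ⧸ W) := h3
    rw [← h5]
    group)
  have h6 : (QuotientGroup.mk' W) l = (QuotientGroup.mk' W) z := by
    symm
    exact (QuotientGroup.eq).2 hzl
  rw [h6]
  exact hRO ⟨z, hz, rfl⟩

end gmod

end Cfsg.Agent.H27.Fus
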