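import Mathlib
import Cfsg.Agent.H27_GMod
import Cfsg.Agent.H27_NSys
import Cfsg.Agent.H27_Emb4
import Cfsg.Agent.H17_Involves
import Cfsg.Agent.H2_Fusion3

/-! Group fusion systems: section-freeness and normal complements. -/

universe u v w
namespace Cfsg.Agent.H27.Fus

open Cfsg Cfsg.FusionSystem Cfsg.Agent.H27.Grp

theorem grp_sectionFree {p : ℕ} [Fact p.Prime] {G : Type u} [Group G] [Finite G] (P : Sylow p G) {X : Type v} [Group X]
    (hinv : ¬ Involves X G) : (Cfsg.groupFusionSystem (P : Subgroup G)).IsSectionFree p X := by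
  have hS : IsSyl p (P : Subgroup G) ⊤ := isSyl_sylow P
  have hSp : IsPGroup p (P : Subgroup G) := P.2
  have hF : (groupFusionSystem (P : Subgroup G)).IsSaturated p := saturated_gfs P
  intro Q hfn hcen E hE L _ ι hmod hL
  apply hinv
  have hQs := hfn
  rw [gfs_eq] at hQs
  have hQs' := ((fn_fss_iff hS).1 hQs).2
  rw [nrmIn_top] at hQs'
  obtain ⟨W, hWn, ι', hWp, hmod'⟩ := grp_local_model hcen.1 hQs' (fun x hx hxy =>
    hcen.2 Q (isConj_refl _ hcen.1) (mem_cen.2 ⟨hx, fun y hy => (hxy y hy).symm⟩)) hE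
  have h1 := nsys_MD hSp hF hfn hcen hE hmod
  have h2 := nsys_MD hSp hF hfn hcen hE hmod'
  obtain ⟨φ, -⟩ := model_unique (hSp.to_le nrm_le) h1 h2
  have h3 : Involves X (↥(Subgroup.normalizer (Q : Set G)) ⧸ W) := H17.Involves.involves_congr_right φ hL
  exact H17.Involves.involves_subgroup (H17.Involves.involves_quotient h3)

theorem npc_of_inner {p : ℕ} [Fact p.Prime] {G : Type u} [Group G] [Finite G] (P : Sylow p G)
    (h : ∀ A f, Map (groupFusionSystem (P : Subgroup G)) A f → Map (innerFusionSystem (P : Subgroup G)) A f) :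
    HasNormalPComplement p G := by
  apply H2.Fusion3.npc_of_controls_fusion P
  intro x hx g hg
  have hz : Subgroup.zpowers x ≤ (P : Subgroup G) := by rw [Subgroup.zpowers_le]; exact hx
  have h1 : Map (groupFusionSystem (P : Subgroup G)) (Subgroup.zpowers x) (fun y => g * y * g⁻¹) := by
    rw [map_gfs]
    refine ⟨hz, ?_, g, fun _ _ => rfl⟩
    intro y hy
    obtain ⟨k, rfl⟩ := Subgroup.mem_zpowers_iff.1 hy
    rw [← conj_zpow]
    exact Subgroup.zpow_mem _ hg k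
  obtain ⟨-, s, hs, hsx⟩ := map_inner_iff.1 (h _ _ h1)
  exact ⟨s, hs, (hsx x (Subgroup.mem_zpowers x)).symm⟩

/-- In a group with a normal `p`-complement, conjugation into a Sylow is inner. -/
theorem inner_of_npc {p : ℕ} [Fact p.Prime] {G : Type u} [Group G] [Finite G] {N T : Subgroup G} (hN : HasNormalPComplement p N)
    (hT : IsSyl p T N) {A : Subgroup G} (hA : A ≤ T) {g : G} (hg : g ∈ N) (hgA : ∀ x ∈ A, g * x * g⁻¹ ∈ T) :
    ∃ s ∈ T, ∀ x ∈ A, g * x * g⁻¹ = s * x * s⁻¹ := by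
  have hTN := hT.le
  obtain ⟨R, hR⟩ := (isSyl_iff hTN).1 hT
  obtain ⟨K, hKn, hK⟩ := (H2.Basic.npc_iff_sylow R).1 hN
  obtain ⟨⟨⟨k, hk⟩, ⟨s, hs⟩⟩, hks⟩ := hK.2 ⟨g, hg⟩
  have hks' : k * s = ⟨g, hg⟩ := hks
  have hsT : (s : G) ∈ T := by
    have : s ∈ (R : Subgroup N) := hs
    rw [hR] at this
    exact this
  refine ⟨s, hsT, fun x hx => ?_⟩
  have hxT := hA hx
  have hy : (s : G) * x * (s : G)⁻¹ ∈ T := T.mul_mem (T.mul_mem hsT hxT) (T.inv_mem hsT)
  have hg' : g = (k : G) * (s : G) := (congrArg Subtype.val hks').symm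
  have h1 := hgA x hx
  have h2 : g * x * g⁻¹ * ((s : G) * x * (s : G)⁻¹)⁻¹ ∈ T := T.mul_mem h1 (T.inv_mem hy)
  set y : N := ⟨(s : G) * x * (s : G)⁻¹, hTN hy⟩ with hyd
  have h3 : k * y * k⁻¹ * y⁻¹ ∈ K := by
    have : k * y * k⁻¹ * y⁻¹ = k * (y * k⁻¹ * y⁻¹) := by group
    rw [this]
    exact K.mul_mem hk (hKn.conj_mem _ (K.inv_mem hk) y)
  have h4 : k * y * k⁻¹ * y⁻¹ ∈ (R : Subgroup N) := by
    rw [hR]
    have : ((k * y * k⁻¹ * y⁻¹ : N) : G) = g * x * g⁻¹ * ((s : G) * x * (s : G)⁻¹)⁻¹ := by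
      rw [hg']; simp only [Subgroup.coe_mul, Subgroup.coe_inv, hyd]; group
    show ((k * y * k⁻¹ * y⁻¹ : N) : G) ∈ T
    rw [this]; exact h2
  have h5 : k * y * k⁻¹ * y⁻¹ = 1 := by
    have := hK.disjoint
    exact Subgroup.disjoint_def.1 this h3 h4
  have h6 := congrArg Subtype.val h5
  have h7 : g * x * g⁻¹ * ((s : G) * x * (s : G)⁻¹)⁻¹ = 1 := by
    rw [← show ((k * y * k⁻¹ * y⁻¹ : N) : G) = g * x * g⁻¹ * ((s : G) * x * (s : G)⁻¹)⁻¹ by
      rw [hg']; simp only [Subgroup.coe_mul, Subgroup.coe_inv, hyd]; group]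
    exact h6
  exact mul_inv_eq_one.1 h7

end Cfsg.Agent.H27.Fus
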