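import Mathlib
import Cfsg.Agent.H27_FusAb
import Cfsg.Agent.H27_FusFac2
import Cfsg.Agent.H27_FusHyp
import Cfsg.Agent.H27_Model2

/-! Gruen's lemma for fusion systems -/

set_option autoImplicit false
set_option linter.unusedVariables false
set_option linter.unusedSectionVars false

namespace Cfsg.Agent.H27.Fus
open Cfsg Cfsg.FusionSystem Cfsg.Agent.H27.Grp

theorem comm_calc {G : Type*} [Group G] {w y z1 z2 : G} (h1 : z1 * y = y * z1) (h2 : z2 * w = w * z2)
    (h3 : z1 * z2 = z2 * z1) (h4 : z1 * w = w * z1) (h5 : z2 * y = y * z2) :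
    (w * z1)⁻¹ * (y * z2)⁻¹ * (w * z1) * (y * z2) = w⁻¹ * y⁻¹ * w * y := by
  have e1 : (w * z1) * (y * z2) = (w * y) * (z1 * z2) := by
    rw [mul_assoc, ← mul_assoc z1, h1]; simp only [mul_assoc]
  have e2 : (y * z2) * (w * z1) = (y * w) * (z1 * z2) := by
    rw [mul_assoc, ← mul_assoc z2, h2, h3]; simp only [mul_assoc]
  have e3 : (z1 * z2)⁻¹ * (w⁻¹ * y⁻¹ * w * y) * (z1 * z2) = w⁻¹ * y⁻¹ * w * y := by
    have c1 : Commute (z1 * z2) w := Commute.mul_left h4 h2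
    have c2 : Commute (z1 * z2) y := Commute.mul_left h1 h5
    have c3 : Commute (z1 * z2) (w⁻¹ * y⁻¹ * w * y) :=
      ((c1.inv_right.mul_right c2.inv_right).mul_right c1).mul_right c2
    rw [mul_assoc, ← c3.eq, inv_mul_cancel_left]
  calc (w * z1)⁻¹ * (y * z2)⁻¹ * (w * z1) * (y * z2) = ((y * z2) * (w * z1))⁻¹ * ((w * z1) * (y * z2)) := by
        group
    _ = ((y * w) * (z1 * z2))⁻¹ * ((w * y) * (z1 * z2)) := by rw [e1, e2]
    _ = (z1 * z2)⁻¹ * (w⁻¹ * y⁻¹ * w * y) * (z1 * z2) := by simp only [mul_inv_rev, mul_assoc]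
    _ = _ := e3

section
variable {Ω : Type*} [Group Ω] {S : Subgroup Ω} {F : FusionSystem S} {p : ℕ} [Fact p.Prime] [Finite S]
variable {Ω' : Type*} [Group Ω'] {S' : Subgroup Ω'}

theorem grun (hS : IsPGroup p S) (hF : F.IsSaturated p) (hperf : F.hyperfocalSubgroup p = S)
    {θ : S →* Ω'} {E : FusionSystem S'} (hE : F.IsFactorSystem F.center θ E) : E.center = ⊥ := by
  have hcc := center_central F
  have hZn : F.IsNormal F.center := IsCentral.normal hcc
  have hZ : F.StronglyClosed F.center := IsNormal.strong hZn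
  obtain ⟨hd, hEm⟩ := isFactorSystem_iff.1 hE
  haveI : Finite S' := finite_S' hd
  have hS' := isPGroup_S' hd hS
  have hEs := factor_saturated hS hF hE hZ
  have hzS := hcc.1
  have hzc : ∀ z ∈ F.center, ∀ s ∈ S, z * s = s * z := fun z hz s hs => (F.center_le_centralizer hz s hs).symm
  have hzf : ∀ P f, Map F P f → ∀ z ∈ P, z ∈ F.center → f z = z :=
    fun P f hf z hzP hz => ((mem_center_iff hS hF).1 hz).2 P f hf hzP
  rw [eq_bot_iff]
  intro y hy
  rw [Subgroup.mem_bot]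
  obtain ⟨w, hwS, rfl⟩ := hd.surj ((center_central E).1 hy)
  suffices hw : w ∈ F.center by
    have h1 := (hd.eq_iff hwS S.one_mem).2 (by simpa using hw)
    rw [h1, tt_one]
  -- Step 1: extend modulo the centre
  have step1 : ∀ P f, Map F P f → ∃ R h, Map F R h ∧ P ≤ R ∧ w ∈ R ∧ F.center ≤ R ∧ (h w)⁻¹ * w ∈ F.center ∧
      ∀ x ∈ P, (h x)⁻¹ * f x ∈ F.center := by
    intro P f hf
    obtain ⟨g, hg, hgf, hgz⟩ := (isCentral_iff.1 hcc).2 P f hf
    have hpi := pre_image hd hf.le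
    have hiP := imageAlong_le hd hf.le
    obtain ⟨g', hg', hI⟩ := exists_ind_map hE hZ hiP (hpi.symm ▸ hg)
    obtain ⟨h', hh', hhg, hhz⟩ := (isCentral_iff.1 (center_central E)).2 _ _ hg'
    obtain ⟨-, -, h, hh, hIh⟩ := (hEm _ _).1 hh'
    have hPR : P ≤ preimageAlong θ (imageAlong θ P ⊔ E.center) := fun x hx =>
      (mem_preimageAlong θ).2 ⟨hf.le hx, Subgroup.mem_sup_left ((mem_imageAlong θ hf.le).2 ⟨x, hx, rfl⟩)⟩
    have hwR : w ∈ preimageAlong θ (imageAlong θ P ⊔ E.center) :=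
      (mem_preimageAlong θ).2 ⟨hwS, Subgroup.mem_sup_right hy⟩
    refine ⟨_, h, hh, hPR, hwR, hd.le_pre _, ?_, ?_⟩
    · refine (hd.eq_iff hwS (hh.mem hwR)).1 ?_
      rw [← hIh w hwR, hhz _ hy]
    · intro x hx
      refine (hd.eq_iff (hf.mem hx) (hh.mem (hPR hx))).1 ?_
      have h2 : tt θ x ∈ imageAlong θ P := (mem_imageAlong θ hf.le).2 ⟨x, hx, rfl⟩
      rw [← hIh x (hPR hx), hhg _ h2, hI x (hpi.symm ▸ Subgroup.mem_sup_left hx), hgf x hx]
  -- Step 2: commutators with `w`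
  have hcomm : ∀ x ∈ S, w⁻¹ * x⁻¹ * w * x ∈ F.center := by
    intro x hx
    have h1 : tt θ (w * x) = tt θ (x * w) := by
      rw [tt_mul θ hwS hx, tt_mul θ hx hwS]
      exact (E.center_le_centralizer hy _ (hd.mem hx)).symm
    have h2 := (hd.eq_iff (S.mul_mem hwS hx) (S.mul_mem hx hwS)).1 h1
    rw [mul_inv_rev] at h2
    simpa only [mul_assoc] using h2
  have step2 : ∀ P f, Map F P f → ∀ x ∈ P, (x⁻¹ * f x) * w = w * (x⁻¹ * f x) := by
    intro P f hf x hx
    obtain ⟨R, h, hh, hPR, hwR, hzR, h1, h2⟩ := step1 P f hf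
    have hxS := hf.le hx
    have hyS := hf.mem hx
    set y := f x with hydef
    have h3 := h2 x hx
    have e1 : h w = w * ((h w)⁻¹ * w)⁻¹ := by group
    have e2 : h x = y * ((h x)⁻¹ * y)⁻¹ := by group
    have z1 := Subgroup.inv_mem _ h1
    have z2 := Subgroup.inv_mem _ h3
    have hcx := hcomm x hxS
    have h4 := hzf _ _ hh _ (hzR hcx) hcx
    have hxR := hPR hx
    rw [hh.mul (R.mul_mem (R.mul_mem (R.inv_mem hwR) (R.inv_mem hxR)) hwR) hxR,
      hh.mul (R.mul_mem (R.inv_mem hwR) (R.inv_mem hxR)) hwR, hh.mul (R.inv_mem hwR) (R.inv_mem hxR),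
      hh.inv hwR, hh.inv hxR, e1, e2] at h4
    rw [comm_calc (hzc _ z1 _ hyS) (hzc _ z2 _ hwS) (hzc _ z1 _ (hzS z2)) (hzc _ z1 _ hwS) (hzc _ z2 _ hyS)] at h4
    -- c := w⁻¹ x⁻¹ w x = w⁻¹ y⁻¹ w y
    have hc := hzc _ hcx
    set c := w⁻¹ * x⁻¹ * w * x with hcdef
    have a1 : x⁻¹ * w * x = w * c := by rw [hcdef]; group
    have a2 : y⁻¹ * w * y = w * c := by rw [← h4]; group
    have a3 : x * w * x⁻¹ = w * c⁻¹ := by
      have : x * (x⁻¹ * w * x) * x⁻¹ = x * (w * c) * x⁻¹ := by rw [a1]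
      have b1 : w = x * w * x⁻¹ * c := by
        calc w = x * (x⁻¹ * w * x) * x⁻¹ := by group
          _ = x * (w * c) * x⁻¹ := this
          _ = x * w * (c * x⁻¹) := by group
          _ = x * w * (x⁻¹ * c) := by rw [hc _ (S.inv_mem hxS)]
          _ = _ := by group
      rw [eq_mul_inv_iff_mul_eq]; exact b1.symm
    have a4 : (x⁻¹ * y)⁻¹ * w * (x⁻¹ * y) = w := by
      calc (x⁻¹ * y)⁻¹ * w * (x⁻¹ * y) = y⁻¹ * (x * w * x⁻¹) * y := by group
        _ = y⁻¹ * (w * c⁻¹) * y := by rw [a3]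
        _ = y⁻¹ * w * (c⁻¹ * y) := by group
        _ = y⁻¹ * w * (y * c⁻¹) := by rw [hzc _ (Subgroup.inv_mem _ hcx) _ hyS]
        _ = (y⁻¹ * w * y) * c⁻¹ := by group
        _ = w := by rw [a2]; group
    calc (x⁻¹ * y) * w = (x⁻¹ * y) * ((x⁻¹ * y)⁻¹ * w * (x⁻¹ * y)) := by rw [a4]
      _ = w * (x⁻¹ * y) := by group
  -- Step 3: `w` is central in `S`
  have step3 : ∀ s ∈ S, s * w = w * s := by
    have h1 : F.focalSubgroup ≤ Subgroup.centralizer {w} := by
      rw [foc_eq, Subgroup.closure_le]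
      rintro _ ⟨P, f, hf, x, hx, rfl⟩
      show _ ∈ Subgroup.centralizer {w}
      rw [Subgroup.mem_centralizer_iff]
      rintro v rfl
      exact (step2 P f hf x hx).symm
    intro s hs
    have h2 : s ∈ Subgroup.centralizer {w} := h1 (hyp_le_foc (p := p) (hperf.symm ▸ hs))
    rw [Subgroup.mem_centralizer_iff] at h2
    exact (h2 w rfl).symm
  -- Step 4
  set W := F.center ⊔ Subgroup.zpowers w with hW
  have hwW : w ∈ W := Subgroup.mem_sup_right (Subgroup.mem_zpowers w)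
  have hWc : ∀ v ∈ W, ∀ s ∈ S, s * v = v * s := by
    intro v hv s hs
    have h1 : W ≤ Subgroup.centralizer {s} := by
      refine sup_le ?_ ((Subgroup.zpowers_le).2 ?_)
      · intro z hz
        rw [Subgroup.mem_centralizer_iff]
        rintro _ rfl
        exact (hzc z hz _ hs).symm
      · rw [Subgroup.mem_centralizer_iff]
        rintro _ rfl
        exact step3 _ hs
    have h2 := h1 hv
    rw [Subgroup.mem_centralizer_iff] at h2
    exact h2 s rfl
  have hWS : W ≤ S := sup_le hzS ((Subgroup.zpowers_le).2 hwS)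
  have hWim : ∀ R h, Map F R h → w ∈ R → F.center ≤ R → (h w)⁻¹ * w ∈ F.center → ∀ x ∈ W, h x ∈ W := by
    intro R h hh hwR hzR h1 x hx
    have hWR : W ≤ R := sup_le hzR ((Subgroup.zpowers_le).2 hwR)
    have h2 : im W h ≤ W := by
      have h3 : h w ∈ W := by
        have e1 : h w = w * ((h w)⁻¹ * w)⁻¹ := by group
        rw [e1]
        exact W.mul_mem hwW (W.inv_mem (Subgroup.mem_sup_left h1))
      refine (im_le_iff (hh.mono hWR)).2 fun v hv => ?_
      refine Subgroup.closure_induction (k := (F.center : Set Ω) ∪ (Subgroup.zpowers w : Set Ω))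
        (p := fun v _ => v ∈ W ∧ h v ∈ W) ?_ ?_ ?_ ?_ (x := v) ?_ |>.2
      · rintro v (hv | hv)
        · exact ⟨Subgroup.mem_sup_left hv, by rw [hzf _ _ hh v (hzR hv) hv]; exact Subgroup.mem_sup_left hv⟩
        · obtain ⟨n, rfl⟩ := Subgroup.mem_zpowers_iff.1 hv
          exact ⟨W.zpow_mem hwW n, by rw [hh.zpow hwR]; exact W.zpow_mem h3 n⟩
      · exact ⟨W.one_mem, by rw [hh.one]; exact W.one_mem⟩
      · rintro a b _ _ ⟨ha, ha'⟩ ⟨hb, hb'⟩
        exact ⟨W.mul_mem ha hb, by rw [hh.mul (hWR ha) (hWR hb)]; exact W.mul_mem ha' hb'⟩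
      · rintro a _ ⟨ha, ha'⟩
        exact ⟨W.inv_mem ha, by rw [hh.inv (hWR ha)]; exact W.inv_mem ha'⟩
      · rw [hW, Subgroup.sup_eq_closure] at hv; exact hv
    exact (im_le_iff (hh.mono hWR)).1 h2 x hx
  have hWst : F.StronglyClosed W := by
    rw [stronglyClosed_iff]
    refine ⟨hWS, fun P f hf x hx hxW => ?_⟩
    obtain ⟨R, h, hh, hPR, hwR, hzR, h1, h2⟩ := step1 P f hf
    have h3 := hWim R h hh hwR hzR h1 x hxW
    have h4 : f x = h x * ((h x)⁻¹ * f x) := by group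
    rw [h4]
    exact W.mul_mem h3 (Subgroup.mem_sup_left (h2 x hx))
  have hWab : IsMulCommutative W := ⟨⟨fun a b => Subtype.ext (hWc b b.2 a (hWS a.2))⟩⟩
  have hWn := abelian_normal hS hF hWst hWab
  haveI : Finite W := finite_of_le hWS
  have hsyl := (isFullyAutomized_iff.1 (fn_automized hS hF (normal_fn hWn))).2
  have hbot : autInducedBy S W = ⊥ := by
    rw [eq_bot_iff]
    intro α hα
    obtain ⟨g, hg, h⟩ := mem_autInducedBy.1 hα
    rw [Subgroup.mem_bot]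
    ext x
    rw [h x, hWc x x.2 g hg]
    show (x : Ω) * g * g⁻¹ = x
    group
  have hcop : (Nat.card (F.autGroup W)).Coprime p := by
    have h1 := hsyl.2.2
    rw [hbot, Subgroup.relIndex_bot_left] at h1
    exact ((Nat.Prime.coprime_iff_not_dvd Fact.out).2 h1).symm
  obtain ⟨e, he⟩ : ∃ n, ∀ x ∈ S, x ^ (p ^ n) = 1 := by
    obtain ⟨n, hn⟩ := IsPGroup.iff_card.1 hS
    refine ⟨n, fun x hx => ?_⟩
    have h1 := pow_card_eq_one' (G := S) (x := ⟨x, hx⟩)
    rw [hn] at h1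
    exact congrArg Subtype.val h1
  refine (mem_center_iff hS hF).2 ⟨hwS, fun P f hf hwP => ?_⟩
  -- extend to `PW`
  obtain ⟨g, hg, hgf, hgW⟩ := (isNormal_iff.1 hWn).2 P f hf
  have hi : Iso F W W g := (hg.mono le_sup_right).iso_of_im_eq hgW
  obtain ⟨R, h, hh, hPR, hwR, hzR, h1, h2⟩ := step1 (P ⊔ W) g hg
  have hgw : (w)⁻¹ * g w ∈ F.center := by
    have h3 := h2 w (Subgroup.mem_sup_right hwW)
    have h4 : w⁻¹ * g w = ((h w)⁻¹ * w)⁻¹ * ((h w)⁻¹ * g w) := by group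
    rw [h4]
    exact Subgroup.mul_mem _ (Subgroup.inv_mem _ h1) h3
  have hα := hi.aut_mem
  set α := hi.aut with hαdef
  have hαv : ∀ x : W, (α x : Ω) = g x := fun x => hi.aut_apply x
  obtain ⟨k, hk⟩ := exists_pow_step (p := p) (P := W) (α := α) (A := W) (B := F.center)
    ⟨e, fun x hx => he x (hWS hx)⟩ le_sup_left
    ⟨0, fun x hx => by
      rw [pow_zero, pow_one]
      exact Subtype.ext ((hαv x).trans (hzf _ _ hi.map x x.2 hx))⟩ (by
      intro x _
      rw [hαv]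
      refine Subgroup.closure_induction (k := (F.center : Set Ω) ∪ (Subgroup.zpowers w : Set Ω))
        (p := fun v _ => v ∈ W ∧ v⁻¹ * g v ∈ F.center) ?_ ?_ ?_ ?_ (x := (x : Ω)) ?_ |>.2
      · rintro v (hv | hv)
        · refine ⟨Subgroup.mem_sup_left hv, ?_⟩
          rw [hzf _ _ hi.map v (Subgroup.mem_sup_left hv) hv, inv_mul_cancel]; exact Subgroup.one_mem _
        · obtain ⟨n, rfl⟩ := Subgroup.mem_zpowers_iff.1 hv
          refine ⟨W.zpow_mem hwW n, ?_⟩
          rw [hi.map.zpow hwW]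
          have e1 : g w = w * (w⁻¹ * g w) := by group
          have e2 : Commute w (w⁻¹ * g w) := (hWc _ (Subgroup.mem_sup_left hgw) w hwS)
          rw [e1, e2.mul_zpow, inv_mul_cancel_left]
          exact Subgroup.zpow_mem _ hgw n
      · refine ⟨W.one_mem, ?_⟩
        rw [hi.map.one]; simp [Subgroup.one_mem]
      · rintro a b _ _ ⟨ha, ha'⟩ ⟨hb, hb'⟩
        refine ⟨W.mul_mem ha hb, ?_⟩
        rw [hi.map.mul ha hb]
        have e1 : (a * b)⁻¹ * (g a * g b) = b⁻¹ * (a⁻¹ * g a) * g b := by group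
        rw [e1, ← hzc _ (ha') _ (S.inv_mem (hWS hb)), mul_assoc]
        exact Subgroup.mul_mem _ ha' hb'
      · rintro a _ ⟨ha, ha'⟩
        refine ⟨W.inv_mem ha, ?_⟩
        rw [hi.map.inv ha]
        have e1 : (a⁻¹)⁻¹ * (g a)⁻¹ = a * (a⁻¹ * g a)⁻¹ * a⁻¹ := by group
        rw [e1, ← hzc _ (Subgroup.inv_mem _ ha') a (hWS ha), mul_assoc, mul_inv_cancel, mul_one]
        exact Subgroup.inv_mem _ ha'
      · exact (le_of_eq (Subgroup.sup_eq_closure F.center (Subgroup.zpowers w))) x.2)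
  have hα1 : α = 1 := by
    have h5 : α ^ (p ^ k) = 1 := MulEquiv.ext fun x => hk x x.2
    have h6 : orderOf (⟨α, hα⟩ : F.autGroup W) ∣ p ^ k := orderOf_dvd_of_pow_eq_one (Subtype.ext h5)
    have h7 : orderOf (⟨α, hα⟩ : F.autGroup W) ∣ Nat.card (F.autGroup W) := orderOf_dvd_natCard _
    have h8 : orderOf (⟨α, hα⟩ : F.autGroup W) = 1 :=
      Nat.eq_one_of_dvd_coprimes (hcop.pow_right k) h7 h6
    exact congrArg Subtype.val (orderOf_eq_one_iff.1 h8)
  rw [← hgf w hwP, ← hαv ⟨w, hwW⟩, hα1]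
  rfl

end

end Cfsg.Agent.H27.Fus
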