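import Cfsg.Statements.S5103
import Mathlib
import Cfsg.Agent.H27_FusReal

set_option autoImplicit false
open Cfsg

namespace Cfsg.Agent.S5103

open H27.Fus H27.Grp

/-- A fusion system over a finite p-group that has a model (a finite group realizing it on a Sylow p-subgroup with self-centralizing largest normal p-subgroup) is constrained. -/
theorem result {Ω : Type*} [Group Ω] {S : Subgroup Ω} [Finite S] (p : ℕ) [Fact p.Prime] (hS : IsPGroup p S) (F : Cfsg.FusionSystem S) {G : Type*} [Group G] (ι : S →* G) (hG : F.IsModel p G ι) : F.IsConstrained p := by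
  obtain ⟨hfin, hr, hSyl, hc⟩ := hG
  have h2 := isSyl_top_iff.2 hSyl
  obtain ⟨k, hk⟩ := fiso_of_realized hr
  refine ⟨saturated_of_realized hr h2, imj (pCore p G) k, ?_, ?_⟩
  · have h3 : (groupFusionSystem ι.range).IsNormal (pCore p G) := by
      rw [gfs_eq]
      have := pCore_normal' p G
      obtain ⟨T, hT⟩ := hSyl
      refine isNormal_fss (by rw [Subgroup.normalizer_eq_top]) ?_
      rw [← hT]
      exact normal_le_sylow T _ (isPGroup_pCore' p G)
    exact hk.symm.normal h3
  · have h3 : (groupFusionSystem ι.range).IsCentric (pCore p G) := by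
      have := pCore_normal' p G
      obtain ⟨T, hT⟩ := hSyl
      have hle : pCore p G ≤ ι.range := by
        rw [← hT]
        exact normal_le_sylow T _ (isPGroup_pCore' p G)
      refine ⟨hle, fun Q hQ => ?_⟩
      rw [gfs_eq, isConj_fss_iff] at hQ
      obtain ⟨-, -, g, -, hg⟩ := hQ
      have hQ' : Q = pCore p G := by
        rw [← hg]
        refine eq_of_le_of_card_le (cj_le.2 fun a ha => this.conj_mem a ha g) (by rw [card_cj])
      rw [hQ']
      exact inf_le_right.trans hc
    exact hk.symm.centric h3

end Cfsg.Agent.S5103
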