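import Mathlib
import Cfsg.Agent.H27_Model4
import Cfsg.Agent.H27_LG2
import Cfsg.Agent.H27_FusReal
import Cfsg.Agent.H22_PSolv2
import Cfsg.Agent.H11_Cores
import Cfsg.Agent.S5103

/-! fusion systems of `p`-solvable groups -/

set_option autoImplicit false

namespace Cfsg.Agent.H27.Fus

open Cfsg FusionSystem H27.Grp

universe u

section
variable {Ω : Type u} [Group Ω] {S : Subgroup Ω} {F : FusionSystem S} {P Q R : Subgroup Ω} {p : ℕ} [Fact p.Prime] [Finite S]

theorem core_centric_of_constrained (hF : F.IsConstrained p) : F.IsCentric F.core := by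
  obtain ⟨-, Q, hQ, hc⟩ := hF
  exact IsCentric.mono hc (le_core hQ) (core_normal F).1

/-- the model is `p`-solvable if `Aut_F(Q)` is -/
theorem psolv_of_aut {G : Type*} [Group G] {ι : S →* G} (hS : IsPGroup p S) (h : MD F p Q G ι)
    (ha : IsPSolvable p (F.autGroup Q)) : IsPSolvable p G := by
  haveI := h.fin
  obtain ⟨act, h1, h2, -, -, h5⟩ := h.exists_act
  haveI : Finite Q := Finite.of_injective (Subgroup.inclusion h.QS) (Subgroup.inclusion_injective _)
  have hk : IsPGroup p act.ker := by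
    rintro ⟨g, hg⟩
    obtain ⟨z, hz, -, rfl⟩ := (h5 g).1 hg
    obtain ⟨k, hk⟩ := hS ⟨z, h.QS hz⟩
    refine ⟨k, Subtype.ext ?_⟩
    show (tt ι z) ^ p ^ k = 1
    rw [tt_of_mem ι (h.QS hz), ← map_pow, hk, map_one]
  obtain ⟨m, hm⟩ := IsPGroup.iff_card.1 hk
  refine Cfsg.Agent.H22.PSolv.isPSolvable_of_quotient act.ker (Or.inl ⟨m, hm⟩) ?_
  rw [← h2] at ha
  exact Cfsg.Agent.H22.PSolv.isPSolvable_of_surjective (QuotientGroup.quotientKerEquivRange act).symm.toMonoidHom
    (QuotientGroup.quotientKerEquivRange act).symm.surjective ha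

theorem aut_psolv {G : Type*} [Group G] {ι : S →* G} (h : MD F p Q G ι) (hG : IsPSolvable p G) :
    IsPSolvable p (F.autGroup Q) := by
  obtain ⟨act, h1, h2, -, -, h5⟩ := h.exists_act
  rw [← h2]
  exact Cfsg.Agent.H22.PSolv.isPSolvable_of_surjective act.rangeRestrict act.rangeRestrict_surjective hG

/-- a model from a `p`-solvable group -/
theorem exists_model_of_psolv {G : Type u} [Group G] [Finite G] {ι : S →* G} (h : F.IsRealizedBy ι)
    (hS : ∃ T : Sylow p G, (T : Subgroup G) = ι.range) (hG : IsPSolvable p G) :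
    ∃ (L : Type u) (_ : Group L) (κ : S →* L), F.IsModel p L κ ∧ IsPSolvable p L := by
  have hsyl := isSyl_top_iff.2 hS
  haveI : (pPrimeCore p G).Normal := inferInstance
  have hN : (Nat.card (pPrimeCore p G)).Coprime p := Cfsg.Agent.H11.Cores.pPrimeCore_coprime p
  obtain ⟨h1, h2⟩ := realized_quotient h hsyl (pPrimeCore p G) hN
  have h3 := Cfsg.Agent.H22.PSolv.isPSolvable_quotient (pPrimeCore p G) hG
  refine ⟨G ⧸ pPrimeCore p G, inferInstance, (QuotientGroup.mk' (pPrimeCore p G)).comp ι, ⟨inferInstance, h1, isSyl_top_iff.1 h2, ?_⟩, h3⟩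
  exact Cfsg.Agent.H22.PSolv.centralizer_pCore_le h3 (Cfsg.Agent.H11.Cores.pPrimeCore_quotient p)

end

end Cfsg.Agent.H27.Fus
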