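import Mathlib
import Cfsg.Agent.H27_Grp2
import Cfsg.Agent.H13_Syl
import Cfsg.Agent.H1_Nilp

/-! Elements acting quadratically on `Z(O_p(G))` centralize `p`-th powers. -/

set_option autoImplicit false
universe u v w
open scoped commutatorElement

namespace Cfsg.Agent.H27.Pw

open Cfsg Subgroup Cfsg.Agent.H13.Syl

variable {G : Type*} [Group G] [Finite G] {p : ℕ} [hp : Fact p.Prime]

theorem pow_conj_comm {g m c : G} (h : g * m * g⁻¹ = c * m) (hgc : g * c * g⁻¹ = c) (n : ℕ) :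
    g ^ n * m * (g ^ n)⁻¹ = c ^ n * m := by
  induction n with
  | zero => simp
  | succ n ih =>
    have h1 : g ^ (n + 1) * m * (g ^ (n + 1))⁻¹ = g * (g ^ n * m * (g ^ n)⁻¹) * g⁻¹ := by
      rw [pow_succ']; group
    have h2 : g * c ^ n * g⁻¹ = c ^ n := by rw [← conj_pow, hgc]
    calc g ^ (n + 1) * m * (g ^ (n + 1))⁻¹ = g * (g ^ n * m * (g ^ n)⁻¹) * g⁻¹ := h1
      _ = g * (c ^ n * m) * g⁻¹ := by rw [ih]
      _ = (g * c ^ n * g⁻¹) * (g * m * g⁻¹) := by group
      _ = c ^ (n + 1) * m := by rw [h2, h, pow_succ]; group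

theorem quad_pow {M : Subgroup G} (hMn : M.Normal) (hMp : IsPGroup p M) (hMc : ∀ x ∈ M, ∀ y ∈ M, x * y = y * x)
    (hO : ∀ K : Subgroup G, K.Normal → (∀ x ∈ K, ∃ k, x ^ (p ^ k) ∈ centralizer (M : Set G)) → K ≤ centralizer (M : Set G))
    {g : G} (hg : ⁅⁅M, zpowers g⁆, zpowers g⁆ = ⊥) : ∀ m ∈ M, g * m ^ p * g⁻¹ = m ^ p := by
  set K : Subgroup G := centralizer {x | x ∈ M ∧ x ^ p = 1} with hK
  have hKmem : ∀ x, x ∈ K ↔ ∀ m ∈ M, m ^ p = 1 → m * x = x * m := by
    intro x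
    rw [hK, mem_centralizer_iff]
    exact ⟨fun h m h1 h2 => h m ⟨h1, h2⟩, fun h m hm => h m hm.1 hm.2⟩
  have hKn : K.Normal := by
    constructor
    intro x hx a
    rw [hKmem] at hx ⊢
    intro m hm hmp
    have h1 := hx (a⁻¹ * m * a) (by have := hMn.conj_mem m hm a⁻¹; rwa [inv_inv] at this) (by
      have := conj_pow (i := p) (a := a⁻¹) (b := m)
      rw [inv_inv] at this
      rw [this, hmp]; group)
    calc m * (a * x * a⁻¹) = a * ((a⁻¹ * m * a) * x) * a⁻¹ := by group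
      _ = a * (x * (a⁻¹ * m * a)) * a⁻¹ := by rw [h1]
      _ = a * x * a⁻¹ * m := by group
  obtain ⟨e, he⟩ := IsPGroup.iff_card.1 hMp
  have hexp : ∀ m ∈ M, m ^ (p ^ e) = 1 := by
    intro m hm
    have := pow_card_eq_one' (x := (⟨m, hm⟩ : M))
    rw [he] at this
    exact congrArg Subtype.val this
  have hconjM : ∀ a, ∀ m ∈ M, a * m * a⁻¹ ∈ M := fun a m hm => hMn.conj_mem m hm a
  have hKC : K ≤ centralizer (M : Set G) := by
    refine hO K hKn fun x hx => ?_
    have key : ∀ i, ∃ k, ∀ m ∈ M, m ^ (p ^ i) = 1 → m * x ^ (p ^ k) = x ^ (p ^ k) * m := by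
      intro i
      induction i with
      | zero => exact ⟨0, fun m _ h => by rw [pow_zero, pow_one] at h; rw [h]; simp⟩
      | succ i ih =>
        obtain ⟨k, hk⟩ := ih
        refine ⟨k + 1, fun m hm hmi => ?_⟩
        set y := x ^ (p ^ k) with hy
        have hyx : x ^ (p ^ (k + 1)) = y ^ p := by rw [hy, ← pow_mul, pow_succ]
        have h1 := hk (m ^ p) (M.pow_mem hm p) (by rw [← pow_mul, ← pow_succ']; exact hmi)
        set c := y * m * y⁻¹ * m⁻¹ with hc
        have hcM : c ∈ M := M.mul_mem (hconjM y m hm) (M.inv_mem hm)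
        have hcp : c ^ p = 1 := by
          rw [hc, (show Commute (y * m * y⁻¹) m⁻¹ from hMc _ (hconjM y m hm) _ (M.inv_mem hm)).mul_pow, conj_pow, ← h1,
            mul_inv_cancel_right, inv_pow, mul_inv_cancel]
        have h2 := (hKmem x).1 hx c hcM hcp
        have h3 : y * c * y⁻¹ = c := by
          have : Commute c y := (show Commute c x from h2).pow_right _
          rw [← this.eq, mul_inv_cancel_right]
        have h4 := pow_conj_comm (g := y) (m := m) (c := c) (by rw [hc]; group) h3 p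
        rw [hcp, one_mul] at h4
        rw [hyx]
        exact (mul_inv_eq_iff_eq_mul.1 h4).symm
    obtain ⟨k, hk⟩ := key e
    exact ⟨k, mem_centralizer_iff.2 fun m hm => hk m hm (hexp m hm)⟩
  have hquad : ∀ m ∈ M, ∀ c, c = g * m * g⁻¹ * m⁻¹ → c ∈ M ∧ g * c * g⁻¹ = c := by
    intro m hm c hc
    refine ⟨by rw [hc]; exact M.mul_mem (hconjM g m hm) (M.inv_mem hm), ?_⟩
    have h1 : c ∈ ⁅M, zpowers g⁆ := by
      have h2 := commutator_mem_commutator hm (mem_zpowers g)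
      have h3 : c = ⁅m, g⁆⁻¹ := by rw [hc, commutatorElement_def]; group
      rw [h3]; exact inv_mem h2
    have h2 := commutator_mem_commutator h1 (mem_zpowers g)
    rw [hg, mem_bot, commutatorElement_eq_one_iff_mul_comm] at h2
    rw [← h2, mul_inv_cancel_right]
  have hcomm : ∀ m ∈ M, (g * m * g⁻¹ * m⁻¹) ^ p = g * m ^ p * g⁻¹ * (m ^ p)⁻¹ := by
    intro m hm
    rw [(show Commute (g * m * g⁻¹) m⁻¹ from hMc _ (hconjM g m hm) _ (M.inv_mem hm)).mul_pow, conj_pow, inv_pow]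
  have hgp : g ^ p ∈ centralizer (M : Set G) := by
    apply hKC
    rw [hKmem]
    intro m hm hmp
    obtain ⟨h1, h2⟩ := hquad m hm _ rfl
    have h3 := pow_conj_comm (g := g) (m := m) (c := g * m * g⁻¹ * m⁻¹) (by group) h2 p
    rw [hcomm m hm, hmp] at h3
    have h4 : g ^ p * m * (g ^ p)⁻¹ = m := by rw [h3]; group
    exact (mul_inv_eq_iff_eq_mul.1 h4).symm
  intro m hm
  obtain ⟨h1, h2⟩ := hquad m hm _ rfl
  have h3 := pow_conj_comm (g := g) (m := m) (c := g * m * g⁻¹ * m⁻¹) (by group) h2 p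
  have h4 := mem_centralizer_iff.1 hgp m hm
  rw [← h4, mul_inv_cancel_right] at h3
  have h5 : (g * m * g⁻¹ * m⁻¹) ^ p = 1 := by
    have : (g * m * g⁻¹ * m⁻¹) ^ p * m = 1 * m := by rw [← h3, one_mul]
    exact mul_right_cancel this
  rw [hcomm m hm] at h5
  exact mul_inv_eq_one.1 h5

theorem no_quad {S : Subgroup G} (hS : IsSylIn p S ⊤) (hc : centralizer (pCore p G : Set G) ≤ pCore p G)
    (𝒢 : Subgroup G → Prop) (h1 : ∀ X : Subgroup G, S ≤ X → X ≠ ⊤ → 𝒢 X) (h2 : ¬ 𝒢 ⊤)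
    (h3 : ∀ X : Subgroup G, X.Normal → 𝒢 (X ⊔ S) → 𝒢 (normalizer ((S ⊓ X : Subgroup G) : Set G)) → 𝒢 ⊤)
    (h4 : ∀ X Y : Subgroup G, S ≤ X → X ≤ Y → 𝒢 Y → 𝒢 X) (Y : Set G)
    (hY : ∀ y ∈ Y, y ∈ S ∧ ∀ s ∈ S, s * y = y * s) (hYH : 𝒢 (centralizer ((fun y => y ^ p) '' Y)))
    {M : Subgroup G} (hM : ∀ x, x ∈ M ↔ x ∈ pCore p G ∧ ∀ y ∈ pCore p G, y * x = x * y)
    {g : G} (hgS : g ∈ S) (hg : ⁅⁅M, zpowers g⁆, zpowers g⁆ = ⊥) : g ∈ pCore p G := by
  haveI hOn : (pCore p G).Normal := H1.Nilp.pCore_normal p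
  have hOp : IsPGroup p (pCore p G) := H1.Nilp.pCore_isPGroup p
  have hOS : pCore p G ≤ S := by
    obtain ⟨S', hS'⟩ := hS.exists_sylow_top
    rw [← hS']; exact hOp.le_sylow_of_normal S'
  have hMO : M ≤ pCore p G := fun x hx => ((hM x).1 hx).1
  have hMp : IsPGroup p M := hOp.to_le hMO
  have hMn : M.Normal := by
    constructor
    intro x hx a
    obtain ⟨h1, h2⟩ := (hM x).1 hx
    refine (hM _).2 ⟨hOn.conj_mem x h1 a, fun y hy => ?_⟩
    have h3 := h2 (a⁻¹ * y * a) (by have := hOn.conj_mem y hy a⁻¹; rwa [inv_inv] at this)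
    calc y * (a * x * a⁻¹) = a * ((a⁻¹ * y * a) * x) * a⁻¹ := by group
      _ = a * (x * (a⁻¹ * y * a)) * a⁻¹ := by rw [h3]
      _ = a * x * a⁻¹ * y := by group
  have hMc : ∀ x ∈ M, ∀ y ∈ M, x * y = y * x := fun x hx y hy => ((hM y).1 hy).2 x (hMO hx)
  have hYM : ∀ y ∈ Y, y ∈ M := by
    intro y hy
    obtain ⟨h1, h2⟩ := hY y hy
    refine (hM y).2 ⟨hc (mem_centralizer_iff.2 fun x hx => h2 x (hOS hx)), fun x hx => h2 x (hOS hx)⟩
  -- normal subgroups inside `H`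
  have hX : ∀ X : Subgroup G, X.Normal → 𝒢 (X ⊔ S) → S ⊓ X ≤ pCore p G := by
    intro X hXn hXH
    have hSn : S ≤ normalizer ((S ⊓ X : Subgroup G) : Set G) := by
      intro s hs
      rw [mem_normalizer_iff]
      intro x
      rw [mem_inf, mem_inf]
      constructor
      · rintro ⟨h1, h2⟩
        exact ⟨S.mul_mem (S.mul_mem hs h1) (S.inv_mem hs), hXn.conj_mem x h2 s⟩
      · rintro ⟨h1, h2⟩
        have h3 := S.mul_mem (S.mul_mem (S.inv_mem hs) h1) hs
        have h4 := hXn.conj_mem _ h2 s⁻¹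
        exact ⟨by simpa [mul_assoc] using h3, by simpa [mul_assoc] using h4⟩
    have htop : normalizer ((S ⊓ X : Subgroup G) : Set G) = ⊤ := by
      by_contra hne
      exact h2 (h3 X hXn hXH (h1 _ hSn hne))
    have hn : (S ⊓ X).Normal := normalizer_eq_top_iff.1 htop
    exact H1.Nilp.le_pCore hn (hS.isPGroup.to_le inf_le_left)
  have hSC : S ≤ centralizer ((fun y => y ^ p) '' Y) := by
    intro s hs
    rw [mem_centralizer_iff]
    rintro _ ⟨y, hy, rfl⟩
    exact ((show Commute s y from (hY y hy).2 s hs).pow_right p).eq.symm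
  have hCM : centralizer (M : Set G) ≤ centralizer ((fun y => y ^ p) '' Y) := by
    apply centralizer_le
    rintro _ ⟨y, hy, rfl⟩
    exact M.pow_mem (hYM y hy) p
  have hOM : pCore p G ≤ centralizer (M : Set G) := fun x hx => mem_centralizer_iff.2 fun m hm => (((hM m).1 hm).2 x hx).symm
  have hO : ∀ K : Subgroup G, K.Normal → (∀ x ∈ K, ∃ k, x ^ (p ^ k) ∈ centralizer (M : Set G)) →
      K ≤ centralizer (M : Set G) := by
    intro K hKn hK
    haveI : (centralizer (M : Set G)).Normal := inferInstance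
    have hSK : Grp.IsSyl p (S ⊓ K) K := by
      have := hS.inf_of_le_normalizer (N := K) le_top (by rw [normalizer_eq_top_iff.2 hKn])
      exact ⟨this.1, this.2.1, this.2.2⟩
    have h1 := hSK.map (QuotientGroup.mk' (centralizer (M : Set G)))
    have h2 : IsPGroup p (K.map (QuotientGroup.mk' (centralizer (M : Set G)))) := by
      rintro ⟨_, x, hx, rfl⟩
      obtain ⟨k, hk⟩ := hK x hx
      refine ⟨k, Subtype.ext ?_⟩
      show (QuotientGroup.mk' (centralizer (M : Set G)) x) ^ p ^ k = 1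
      rw [← map_pow]
      exact (QuotientGroup.eq_one_iff _).2 hk
    have h3 := h1.eq_of_isPGroup h2
    have hKle : K ≤ S ⊔ centralizer (M : Set G) := by
      intro x hx
      have h4 : QuotientGroup.mk' (centralizer (M : Set G)) x ∈ (S ⊓ K).map (QuotientGroup.mk' (centralizer (M : Set G))) := by
        rw [h3]; exact ⟨x, hx, rfl⟩
      obtain ⟨s, hs, hsx⟩ := h4
      have h5 : s⁻¹ * x ∈ centralizer (M : Set G) := QuotientGroup.eq.1 hsx
      have h6 : x = s * (s⁻¹ * x) := by group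
      rw [h6]
      exact mul_mem (mem_sup_left hs.1) (mem_sup_right h5)
    have h4 := hX K hKn (h4 _ _ le_sup_right (sup_le (hKle.trans (sup_le hSC hCM)) hSC) hYH)
    intro x hx
    have h5 : QuotientGroup.mk' (centralizer (M : Set G)) x ∈ (S ⊓ K).map (QuotientGroup.mk' (centralizer (M : Set G))) := by
      rw [h3]; exact ⟨x, hx, rfl⟩
    obtain ⟨s, hs, hsx⟩ := h5
    have h6 : s⁻¹ * x ∈ centralizer (M : Set G) := QuotientGroup.eq.1 hsx
    have h7 : x = s * (s⁻¹ * x) := by group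
    rw [h7]
    exact mul_mem (hOM (h4 hs)) h6
  have hpow := quad_pow hMn hMp hMc hO hg
  have hcl : normalClosure ({g} : Set G) ≤ centralizer ((fun y => y ^ p) '' Y) := by
    rw [normalClosure, closure_le]
    intro x hx
    rw [Group.mem_conjugatesOfSet_iff] at hx
    obtain ⟨g', hg', hconj⟩ := hx
    rw [Set.mem_singleton_iff] at hg'
    subst hg'
    obtain ⟨a, rfl⟩ := isConj_iff.1 hconj
    rw [SetLike.mem_coe, mem_centralizer_iff]
    rintro _ ⟨y, hy, rfl⟩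
    have h1 := hpow (a⁻¹ * y * a) (by have := hMn.conj_mem y (hYM y hy) a⁻¹; rwa [inv_inv] at this)
    have h2 : (a⁻¹ * y * a) ^ p = a⁻¹ * y ^ p * a := by
      have := conj_pow (i := p) (a := a⁻¹) (b := y)
      rwa [inv_inv] at this
    rw [h2] at h1
    have h3 : a * (g' * (a⁻¹ * y ^ p * a) * g'⁻¹) * a⁻¹ = a * (a⁻¹ * y ^ p * a) * a⁻¹ := by rw [h1]
    have h4 : (a * g' * a⁻¹) * y ^ p * (a * g' * a⁻¹)⁻¹ = y ^ p := by
      calc (a * g' * a⁻¹) * y ^ p * (a * g' * a⁻¹)⁻¹ = a * (g' * (a⁻¹ * y ^ p * a) * g'⁻¹) * a⁻¹ := by group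
        _ = a * (a⁻¹ * y ^ p * a) * a⁻¹ := h3
        _ = y ^ p := by group
    exact (mul_inv_eq_iff_eq_mul.1 h4).symm
  have h8 := hX (normalClosure {g}) normalClosure_normal (h4 _ _ le_sup_right (sup_le hcl hSC) hYH)
  exact h8 ⟨hgS, subset_normalClosure rfl⟩

end Cfsg.Agent.H27.Pw
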