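import Mathlib
import Cfsg.Agent.H27_Pw1
import Cfsg.Agent.H27_LG3

set_option autoImplicit false
universe u v w
open scoped commutatorElement

namespace Cfsg.Agent.H27.Fus

open Cfsg Cfsg.FusionSystem Cfsg.Agent.H27.Grp Cfsg.Agent.H13.Syl

/-- overgroups of a Sylow subgroup inherit characteristic `p` -/
theorem charp_sub {p : ℕ} [Fact p.Prime] {G : Type*} [Group G] [Finite G] {S X : Subgroup G} (hS : IsSylIn p S ⊤)
    (hc : Subgroup.centralizer (pCore p G : Set G) ≤ pCore p G) (hX : S ≤ X) :
    Subgroup.centralizer (pCore p X : Set X) ≤ pCore p X ∧ (pCore p G) ≤ (pCore p X).map X.subtype := by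
  haveI hOn : (pCore p G).Normal := H1.Nilp.pCore_normal p
  have hOp : IsPGroup p (pCore p G) := H1.Nilp.pCore_isPGroup p
  have hOS : pCore p G ≤ S := by
    obtain ⟨S', hS'⟩ := hS.exists_sylow_top
    rw [← hS']; exact hOp.le_sylow_of_normal S'
  have h1 : (pCore p G).subgroupOf X ≤ pCore p X :=
    H1.Nilp.le_pCore inferInstance hOp.comap_subtype
  have h2 : (pCore p G) ≤ (pCore p X).map X.subtype := by
    intro x hx
    exact ⟨⟨x, hX (hOS hx)⟩, h1 (show _ ∈ (pCore p G).subgroupOf X from hx), rfl⟩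
  refine ⟨fun x hx => h1 ?_, h2⟩
  show (x : G) ∈ pCore p G
  apply hc
  rw [Subgroup.mem_centralizer_iff]
  intro y hy
  exact congrArg Subtype.val (Subgroup.mem_centralizer_iff.1 hx ⟨y, hX (hOS hy)⟩ (h1 hy))

theorem frattini_top {p : ℕ} [Fact p.Prime] {G : Type*} [Group G] [Finite G] {S X : Subgroup G} (hS : IsSylIn p S ⊤)
    (hX : X.Normal) (g : G) : ∃ x ∈ X, ∃ n ∈ Subgroup.normalizer ((S ⊓ X : Subgroup G) : Set G), g = x * n := by
  have hSX : IsSylIn p (S ⊓ X) X := hS.inf_of_le_normalizer le_top (by rw [Subgroup.normalizer_eq_top_iff.2 hX])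
  obtain ⟨n, hn, m, hm, h⟩ := hSX.frattini (H := ⊤) le_top (by rw [Subgroup.normalizer_eq_top_iff.2 hX]) (Subgroup.mem_top g)
  exact ⟨n, hn, m, hm.2, h⟩

theorem grp_center {p : ℕ} [Fact p.Prime] (W : ∀ (Q : Type u) [Group Q], Subgroup Q)
    (hW2 : ∀ (Q R : Type u) [Group Q] [Group R] [Finite Q], IsPGroup p Q → ∀ φ : Q ≃* R, (W Q).map φ.toMonoidHom = W R)
    (hq : ∀ (G : Type u) [Group G] [Finite G] (P : Sylow p G),
      ¬ (((W ↥(P : Subgroup G)).map (P : Subgroup G).subtype : Subgroup G)).Normal →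
        ∃ g : G, g ∈ (P : Subgroup G) ∧ g ∉ pCore p G ∧
          ⁅⁅(Subgroup.center ↥(pCore p G)).map (pCore p G).subtype, Subgroup.zpowers g⁆, Subgroup.zpowers g⁆ = ⊥) :
    ∀ (n : ℕ) (G : Type u) [Group G] [Finite G], Nat.card G = n → ∀ (S : Subgroup G), IsSylIn p S ⊤ →
      Subgroup.centralizer (pCore p G : Set G) ≤ pCore p G → ∀ y ∈ S, (∀ s ∈ S, s * y = y * s) →
        (∀ x ∈ Subgroup.normalizer (Wm W S : Set G), x * y ^ p = y ^ p * x) → ∀ x : G, x * y ^ p = y ^ p * x := by
  intro n
  induction n using Nat.strong_induction_on with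
  | _ n ih =>
  intro G _ _ hn S hS hc y hyS hyc hN
  by_contra hcon
  push Not at hcon
  obtain ⟨x₀, hx₀⟩ := hcon
  obtain ⟨P, hP⟩ := hS.exists_sylow_top
  subst hP
  have hWn : ¬ (((W ↥(P : Subgroup G)).map (P : Subgroup G).subtype : Subgroup G)).Normal := by
    intro h
    apply hx₀
    apply hN
    show x₀ ∈ Subgroup.normalizer (((W ↥(P : Subgroup G)).map (P : Subgroup G).subtype : Subgroup G) : Set G)
    rw [Subgroup.normalizer_eq_top_iff.2 h]; trivial
  obtain ⟨g, hgP, hgO, hquad⟩ := hq G P hWn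
  apply hgO
  refine Pw.no_quad hS hc (fun X => ∀ x ∈ X, x * y ^ p = y ^ p * x) ?_ ?_ ?_ ?_ {y} ?_ ?_
    (M := (Subgroup.center ↥(pCore p G)).map (pCore p G).subtype) ?_ hgP hquad
  · intro X hPX hXt
    -- induction
    have hcard : Nat.card X < n := by
      rw [← hn]
      refine lt_of_le_of_ne (Subgroup.card_le_card_group X) fun h => hXt ?_
      exact Subgroup.eq_top_of_card_eq X h
    have hSX : IsSylIn p ((P : Subgroup G).subgroupOf X) ⊤ := by
      refine ⟨le_top, hS.isPGroup.comap_subtype, fun hd => hS.not_dvd ?_⟩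
      rw [Subgroup.relIndex_top_right] at hd ⊢
      exact hd.trans (by
        show (P : Subgroup G).relIndex X ∣ _
        exact Subgroup.relIndex_dvd_index_of_le hPX)
    have h1 := ih (Nat.card X) hcard X rfl ((P : Subgroup G).subgroupOf X) hSX (charp_sub hS hc hPX).1 ⟨y, hPX hyS⟩
      hyS (fun s hs => Subtype.ext (hyc s hs)) (by
        intro x hx
        apply Subtype.ext
        show (x : G) * y ^ p = y ^ p * x
        apply hN
        -- transport of `W`
        let ι : ↥(P : Subgroup G) →* X := Subgroup.inclusion hPX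
        have hι : Function.Injective ι := Subgroup.inclusion_injective hPX
        have hT : (P : Subgroup G).subgroupOf X = ι.range := by
          ext z
          constructor
          · intro hz
            exact ⟨⟨z, hz⟩, rfl⟩
          · rintro ⟨w, rfl⟩
            exact w.2
        have hmem : ∀ z : X, z ∈ Wm W ((P : Subgroup G).subgroupOf X) ↔ (z : G) ∈ Wm W (P : Subgroup G) := by
          intro z
          have h2 := W_transfer (p := p) (W := W) (S := (P : Subgroup G)) P.2 hW2 hι hT (y := z)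
          constructor
          · intro hz
            obtain ⟨w, hw, hwz⟩ := h2.1 hz
            have hwP := Wm_le _ hw
            rw [tt_of_mem ι hwP] at hwz
            rw [← hwz]; exact hw
          · intro hz
            have hzP := Wm_le _ hz
            refine h2.2 ⟨z, hz, ?_⟩
            rw [tt_of_mem ι hzP]; rfl
        rw [Subgroup.mem_normalizer_iff] at hx ⊢
        intro w
        have hxX := x.2
        constructor
        · intro hw
          have hwX : w ∈ X := hPX (Wm_le _ hw)
          have := (hx ⟨w, hwX⟩).1 ((hmem _).2 hw)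
          exact (hmem _).1 this
        · intro hw
          have hwX : w ∈ X := by
            have h3 := X.mul_mem (X.mul_mem (X.inv_mem hxX) (hPX (Wm_le _ hw))) hxX
            simpa [mul_assoc] using h3
          have := (hx ⟨w, hwX⟩).2 ((hmem _).2 hw)
          exact (hmem _).1 this)
    intro x hx
    exact congrArg Subtype.val (h1 ⟨x, hx⟩)
  · intro h
    exact hx₀ (h x₀ trivial)
  · intro X hXn h1 h2 x _
    obtain ⟨a, ha, b, hb, rfl⟩ := frattini_top hS hXn x
    rw [mul_assoc, h2 b hb, ← mul_assoc, h1 a (Subgroup.mem_sup_left ha), mul_assoc]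
  · intro X Y _ hXY h x hx
    exact h x (hXY hx)
  · intro z hz
    rw [Set.mem_singleton_iff] at hz
    subst hz
    exact ⟨hyS, hyc⟩
  · intro x hx
    exact (Subgroup.mem_centralizer_iff.1 hx (y ^ p) ⟨y, rfl, rfl⟩).symm
  · intro x
    constructor
    · rintro ⟨z, hz, rfl⟩
      exact ⟨z.2, fun w hw => congrArg Subtype.val (Subgroup.mem_center_iff.1 hz ⟨w, hw⟩)⟩
    · rintro ⟨h1, h2⟩
      exact ⟨⟨x, h1⟩, Subgroup.mem_center_iff.2 fun w => Subtype.ext (h2 w w.2), rfl⟩

end Cfsg.Agent.H27.Fus
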