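import Mathlib
import Cfsg.Agent.H27_Qd2
import Cfsg.Agent.H27_GMod
import Cfsg.Agent.H27_FusMk
import Cfsg.Agent.H27_Model4

/-! `Qd(p)`-freeness of group fusion systems. -/

universe u v w
namespace Cfsg.Agent.H27.Qd

open Cfsg Cfsg.Agent.H27.Grp
open Matrix (SpecialLinearGroup)

theorem involves_top {X G : Type*} [Group X] [Group G] (h : Involves ↥(⊤ : Subgroup X) G) : Involves X G :=
  H17.Involves.involves_of_mulEquiv Subgroup.topEquiv h

theorem involves_quot {X N : Type*} [Group X] [Group N] [Finite N] {p : ℕ}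
    (hX : ∀ R : Subgroup X, R.Normal → (Nat.card R).Coprime p → R = ⊥) (W : Subgroup N) [W.Normal]
    (hW : (Nat.card W).Coprime p) (h : Involves X N) : Involves X (N ⧸ W) := by
  obtain ⟨K, f, hf⟩ := H17.Involves.involves_iff.1 h
  have hker : ∀ k : K, (k : N) ∈ W → f k = 1 := by
    have h1 : (W.subgroupOf K).map f = ⊥ := by
      apply hX
      · exact Subgroup.Normal.map inferInstance f hf
      · have h2 : Nat.card ((W.subgroupOf K).map f) ∣ Nat.card (W.subgroupOf K) := Subgroup.card_map_dvd _ _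
        have h3 : Nat.card (W.subgroupOf K) ∣ Nat.card W :=
          Subgroup.card_comap_dvd_of_injective W K.subtype K.subtype_injective
        exact Nat.Coprime.coprime_dvd_left (h2.trans h3) hW
    intro k hk
    have h2 : f k ∈ (W.subgroupOf K).map f := ⟨k, hk, rfl⟩
    rw [h1] at h2
    exact h2
  apply involves_top
  refine involves_of_rel (fun y x => ∃ k : K, ((k : N) : N ⧸ W) = y ∧ f k = x) ⟨1, rfl, map_one f⟩ ?_ ?_ ?_ ?_ ?_
  · rintro _ _ _ _ ⟨k, rfl, rfl⟩ ⟨l, rfl, rfl⟩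
    exact ⟨k * l, rfl, map_mul f _ _⟩
  · rintro _ _ ⟨k, rfl, rfl⟩
    exact ⟨k⁻¹, rfl, map_inv f _⟩
  · rintro _ ⟨k, hk, rfl⟩
    exact hker k ((QuotientGroup.eq_one_iff _).1 hk)
  · intro x _
    obtain ⟨k, rfl⟩ := hf x
    exact ⟨_, k, rfl, rfl⟩
  · intro _ _ _; trivial

variable {p : ℕ}

theorem mk3_one_pow (w : Fin 2 → ZMod p) (n : ℕ) :
    mk3 (1 : SpecialLinearGroup (Fin 2) (ZMod p)) w ^ n = mk3 1 (n • w) := by
  induction n with
  | zero => simp [mk3_one]
  | succ n ih =>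
    rw [pow_succ, ih, mk3_mul, mul_one, Matrix.SpecialLinearGroup.coe_one, Matrix.one_mulVec, add_smul, one_smul, add_comm]

theorem mk3_one_pow_p (w : Fin 2 → ZMod p) : mk3 (1 : SpecialLinearGroup (Fin 2) (ZMod p)) w ^ p = 1 := by
  rw [mk3_one_pow]
  have : p • w = 0 := by ext i; simp
  rw [this, mk3_one]

theorem mk3_inv' (A : SpecialLinearGroup (Fin 2) (ZMod p)) (w : Fin 2 → ZMod p) :
    (mk3 A w)⁻¹ = mk3 A⁻¹ (-(((A⁻¹ : SpecialLinearGroup (Fin 2) (ZMod p)) : Matrix (Fin 2) (Fin 2) (ZMod p)).mulVec w)) := by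
  rw [inv_eq_iff_mul_eq_one, mk3_mul, mul_inv_cancel, Matrix.mulVec_neg, Matrix.mulVec_mulVec,
    ← Matrix.SpecialLinearGroup.coe_mul, mul_inv_cancel, Matrix.SpecialLinearGroup.coe_one, Matrix.one_mulVec,
    neg_add_cancel, mk3_one]

theorem mk3_conj (A : SpecialLinearGroup (Fin 2) (ZMod p)) (w u : Fin 2 → ZMod p) :
    mk3 A w * mk3 1 u * (mk3 A w)⁻¹ = mk3 1 ((A : Matrix (Fin 2) (Fin 2) (ZMod p)).mulVec u) := by
  rw [mul_inv_eq_iff_eq_mul, mk3_mul, mk3_mul, mul_one, one_mul, Matrix.SpecialLinearGroup.coe_one, Matrix.one_mulVec,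
    add_comm]

theorem qd_pprime [Fact p.Prime] (R : Subgroup ↥(qd p)) (hR : R.Normal) (hRp : (Nat.card R).Coprime p) : R = ⊥ := by
  have hor : ∀ r ∈ R, r ^ p = 1 → r = 1 := by
    intro r hr hp
    have h1 : orderOf r ∣ p := orderOf_dvd_of_pow_eq_one hp
    have h2 : orderOf r ∣ Nat.card R := by
      have := orderOf_dvd_natCard (⟨r, hr⟩ : R)
      rwa [Subgroup.orderOf_mk] at this
    have h3 : orderOf r = 1 := Nat.eq_one_of_dvd_coprimes hRp h2 h1
    exact orderOf_eq_one_iff.1 h3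
  rw [eq_bot_iff]
  rintro ⟨r, hrq⟩ hr
  obtain ⟨A, w, rfl⟩ := exists_mk3 hrq
  have hA : A = 1 := by
    apply Subtype.ext
    apply Matrix.mulVec_injective
    funext u
    have h1 : (⟨mk3 A w, hrq⟩ : ↥(qd p)) * (⟨mk3 1 u, mk3_mem _ _⟩ * (⟨mk3 A w, hrq⟩ : ↥(qd p))⁻¹ *
        (⟨mk3 1 u, mk3_mem _ _⟩ : ↥(qd p))⁻¹) ∈ R :=
      R.mul_mem hr (hR.conj_mem _ (R.inv_mem hr) _)
    have h2 := hor _ h1 (by
      apply Subtype.ext
      have h3 : mk3 A w * (mk3 1 u * (mk3 A w)⁻¹ * (mk3 1 u)⁻¹) =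
          mk3 1 ((A : Matrix (Fin 2) (Fin 2) (ZMod p)).mulVec u - u) := by
        have h4 : mk3 A w * (mk3 1 u * (mk3 A w)⁻¹ * (mk3 1 u)⁻¹) = (mk3 A w * mk3 1 u * (mk3 A w)⁻¹) * (mk3 1 u)⁻¹ := by
          group
        rw [h4, mk3_conj, mk3_inv', mk3_mul, inv_one, mul_one, Matrix.SpecialLinearGroup.coe_one, Matrix.one_mulVec,
          Matrix.one_mulVec]
        congr 1
        abel
      show (mk3 A w * (mk3 1 u * (mk3 A w)⁻¹ * (mk3 1 u)⁻¹)) ^ p = 1
      rw [h3, mk3_one_pow_p])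
    have h5 := congrArg Subtype.val h2
    have h6 : mk3 A w * (mk3 1 u * (mk3 A w)⁻¹ * (mk3 1 u)⁻¹) = 1 := h5
    have h7 : mk3 A w * mk3 1 u * (mk3 A w)⁻¹ = mk3 1 u := by
      have h8 : mk3 A w * mk3 1 u * (mk3 A w)⁻¹ = (mk3 A w * (mk3 1 u * (mk3 A w)⁻¹ * (mk3 1 u)⁻¹)) * mk3 1 u := by group
      rw [h8, h6, one_mul]
    rw [mk3_conj] at h7
    have h8 := (mk3_inj h7).2
    rw [h8, Matrix.SpecialLinearGroup.coe_one, Matrix.one_mulVec]
  subst hA
  rw [Subgroup.mem_bot]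
  exact hor _ hr (Subtype.ext (mk3_one_pow_p w))

/-- data from an involved `Qd(p)` -/
theorem stepA [Fact p.Prime] {G : Type*} [Group G] [Finite G] (h : Involves ↥(qd p) G) :
    ∃ (T : Subgroup G) (v : G → Fin 2 → ZMod p), QD p T v ∧
      ∀ A : SpecialLinearGroup (Fin 2) (ZMod p), ∃ h, Act T v h A := by
  obtain ⟨K, f, hf⟩ := H17.Involves.involves_iff.1 h
  -- preimage of translations in `K`
  let N₀ : Subgroup ↥(qd p) :=
    { carrier := {x | ∃ w, (x : SpecialLinearGroup (Fin 3) (ZMod p)) = mk3 1 w}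
      mul_mem' := by
        rintro ⟨x, hx⟩ ⟨y, hy⟩ ⟨w, rfl⟩ ⟨u, rfl⟩
        exact ⟨u + w, by
          show mk3 1 w * mk3 1 u = _
          rw [mk3_mul, mul_one, Matrix.SpecialLinearGroup.coe_one, Matrix.one_mulVec]⟩
      one_mem' := ⟨0, mk3_one.symm⟩
      inv_mem' := by
        rintro ⟨x, hx⟩ ⟨w, rfl⟩
        exact ⟨-w, by
          show (mk3 1 w)⁻¹ = _
          rw [mk3_inv', inv_one, Matrix.SpecialLinearGroup.coe_one, Matrix.one_mulVec]⟩ }
  have hN₀p : IsPGroup p N₀ := by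
    rintro ⟨⟨x, hx⟩, ⟨w, hw⟩⟩
    refine ⟨1, ?_⟩
    rw [pow_one]
    apply Subtype.ext
    apply Subtype.ext
    show x ^ p = 1
    have : x = mk3 1 w := hw
    rw [this, mk3_one_pow_p]
  obtain ⟨T₁, hT₁⟩ := exists_isSyl (p := p) (N₀.comap f)
  have hfT : T₁.map f = N₀ := by
    have h1 : IsSyl p (T₁.map f) ((N₀.comap f).map f) := hT₁.map f
    rw [Subgroup.map_comap_eq_self_of_surjective hf] at h1
    exact h1.eq_of_isPGroup hN₀p
  have hval : ∀ x : K, x ∈ T₁ → ∃ w, (f x : SpecialLinearGroup (Fin 3) (ZMod p)) = mk3 1 w := fun x hx => hT₁.le hx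
  classical
  let v : G → Fin 2 → ZMod p := fun x => if hx : ∃ h : x ∈ K, (⟨x, h⟩ : K) ∈ T₁ then (hval ⟨x, hx.1⟩ hx.2).choose else 0
  have hv : ∀ x : K, x ∈ T₁ → (f x : SpecialLinearGroup (Fin 3) (ZMod p)) = mk3 1 (v x) := by
    intro x hx
    have h1 : ∃ h : (x : G) ∈ K, (⟨x, h⟩ : K) ∈ T₁ := ⟨x.2, hx⟩
    have h2 : v x = (hval ⟨x, h1.1⟩ h1.2).choose := dif_pos h1
    rw [h2]
    exact (hval ⟨x, h1.1⟩ h1.2).choose_spec
  have hq : QD p (T₁.map K.subtype) v := by
    refine ⟨hT₁.isPGroup.map _, ?_, ?_⟩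
    · rintro _ ⟨x, hx, rfl⟩ _ ⟨y, hy, rfl⟩
      have h1 := hv (x * y) (T₁.mul_mem hx hy)
      rw [map_mul, Subgroup.coe_mul, hv x hx, hv y hy, mk3_mul, mul_one, Matrix.SpecialLinearGroup.coe_one,
        Matrix.one_mulVec] at h1
      have := (mk3_inj h1).2
      simp only [Subgroup.coe_subtype]
      rw [← Subgroup.coe_mul, ← this, add_comm]
    · intro w
      have h1 : (⟨mk3 1 w, mk3_mem _ _⟩ : ↥(qd p)) ∈ N₀ := ⟨w, rfl⟩
      rw [← hfT] at h1
      obtain ⟨x, hx, hxw⟩ := h1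
      refine ⟨x, ⟨x, hx, rfl⟩, ?_⟩
      have h2 := hv x hx
      rw [hxw] at h2
      exact (mk3_inj h2).2.symm
  refine ⟨T₁.map K.subtype, v, hq, ?_⟩
  intro A
  obtain ⟨k, hk⟩ := hf ⟨mk3 A 0, mk3_mem _ _⟩
  have hkn : k ∈ Subgroup.normalizer ((N₀.comap f : Subgroup K) : Set K) := by
    have hnor : N₀.Normal := by
      constructor
      rintro ⟨x, hx⟩ ⟨w, hw⟩ ⟨g, hg⟩
      obtain ⟨B, u, rfl⟩ := exists_mk3 hg
      have hw' : x = mk3 1 w := hw
      subst hw'
      exact ⟨_, mk3_conj B u w⟩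
    haveI := hnor
    rw [Subgroup.normalizer_eq_top]
    trivial
  obtain ⟨c, hc, hck⟩ := frat hT₁ hkn
  obtain ⟨u, hu⟩ : ∃ u, (f c : SpecialLinearGroup (Fin 3) (ZMod p)) = mk3 1 u := hc
  have hfck : (f (c * k) : SpecialLinearGroup (Fin 3) (ZMod p)) = mk3 A u := by
    rw [map_mul, Subgroup.coe_mul, hu, hk]
    show mk3 1 u * mk3 A 0 = _
    rw [mk3_mul, one_mul, Matrix.mulVec_zero, zero_add]
  refine ⟨((c * k : K) : G), ?_, ?_⟩
  · rw [Subgroup.mem_normalizer_iff]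
    intro x
    constructor
    · rintro ⟨y, hy, rfl⟩
      exact ⟨_, (Subgroup.mem_normalizer_iff.1 hck y).1 hy, rfl⟩
    · rintro ⟨y, hy, hyx⟩
      have hx : x = (((c * k)⁻¹ * y * (c * k)⁻¹⁻¹ : K) : G) := by
        have hyx' : (y : G) = (c * k : K) * x * (c * k : K)⁻¹ := hyx
        push_cast
        rw [hyx']
        push_cast
        group
      refine ⟨(c * k)⁻¹ * y * (c * k)⁻¹⁻¹, ?_, hx.symm⟩
      exact (Subgroup.mem_normalizer_iff.1 (Subgroup.inv_mem _ hck) y).1 hy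
  · rintro _ ⟨x, hx, rfl⟩
    have h1 : (c * k) * x * (c * k)⁻¹ ∈ T₁ := (Subgroup.mem_normalizer_iff.1 hck x).1 hx
    have h2 := hv _ h1
    rw [map_mul, map_mul, map_inv, Subgroup.coe_mul, Subgroup.coe_mul, Subgroup.coe_inv, hfck, hv x hx, mk3_conj] at h2
    exact (mk3_inj h2).2.symm

theorem norm_of_cj {G : Type*} [Group G] [Finite G] {g : G} {A : Subgroup G} (h : Grp.cj g A ≤ A) :
    g ∈ Subgroup.normalizer (A : Set G) := by
  have h2 : Grp.cj g A = A := eq_of_le_of_card_le h (by rw [card_cj])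
  rw [Subgroup.mem_normalizer_iff]
  intro x
  constructor
  · intro hx
    exact h (conj_mem_cj hx)
  · intro hx
    rw [← h2] at hx
    obtain ⟨a, ha, hax⟩ := mem_cj.1 hx
    have : a = x := mul_left_cancel (mul_right_cancel hax)
    rwa [← this]

/-- the elements acting trivially -/
def C0 {G : Type*} [Group G] (T : Subgroup G) (v : G → Fin 2 → ZMod p) : Subgroup G where
  carrier := {h | Act T v h 1}
  mul_mem' := by
    rintro a b ha hb
    simpa using Act.mul ha hb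
  one_mem' := act_one
  inv_mem' := by
    rintro a ha
    simpa using Act.inv ha

theorem stepB [Fact p.Prime] (hp : p ≠ 2) {G : Type*} [Group G] [Finite G] (h : Involves ↥(qd p) G) :
    ∃ Q : Subgroup G, IsPGroup p Q ∧ (∀ x : G, IsPGroup p (Subgroup.zpowers x) → (∀ y ∈ Q, x * y = y * x) → x ∈ Q) ∧
      Involves ↥(qd p) ↥(Subgroup.normalizer (Q : Set G)) := by
  obtain ⟨T, v, hq, hall⟩ := stepA h
  set U : Subgroup G := T ⊔ Subgroup.centralizer (T : Set G) with hU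
  obtain ⟨Q, hTQ, hQ⟩ := exists_isSyl_ge (p := p) (A := U) (B := T) le_sup_left hq.pg
  have hU0 : U ≤ C0 T v := by
    refine sup_le (fun t ht => hq.act_of_mem ht) (fun c hc => act_of_cen fun t ht => ?_)
    exact (Subgroup.mem_centralizer_iff.1 hc t ht).symm
  refine ⟨Q, hQ.isPGroup, ?_, ?_⟩
  · intro x hx hxc
    have hxU : x ∈ U := Subgroup.mem_sup_right (Subgroup.mem_centralizer_iff.2 fun t ht => (hxc t (hTQ ht)).symm)
    have h1 : IsPGroup p ↥(Q ⊔ Subgroup.zpowers x) := by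
      apply IsPGroup.to_sup_of_normal_left' hQ.isPGroup hx
      rw [Subgroup.zpowers_le]
      rw [Subgroup.mem_normalizer_iff]
      intro y
      constructor
      · intro hy
        rw [hxc y hy]
        simpa using hy
      · intro hy
        have h2 := hxc _ hy
        have h3 : x * (x * y * x⁻¹) * x⁻¹ = x * y * x⁻¹ := by rw [h2]; group
        have h4 : x * y * x⁻¹ = y := mul_left_cancel (mul_right_cancel h3)
        rwa [h4] at hy
    have h2 : Q = Q ⊔ Subgroup.zpowers x := hQ.eq_of_le (sup_le hQ.le (by rw [Subgroup.zpowers_le]; exact hxU)) h1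
      le_sup_left
    rw [h2]
    exact Subgroup.mem_sup_right (Subgroup.mem_zpowers x)
  · set N := Subgroup.normalizer (Q : Set G) with hN
    refine stepE (T := T.subgroupOf N) (v := fun x => v x) hp ?_ ?_
    · refine ⟨?_, ?_, ?_⟩
      · exact hq.pg.comap_subtype
      · intro x hx y hy
        exact hq.mul x hx y hy
      · intro w
        obtain ⟨x, hx, rfl⟩ := hq.surj w
        exact ⟨⟨x, Subgroup.le_normalizer (hTQ hx)⟩, hx, rfl⟩
    · intro A
      obtain ⟨h, hh⟩ := hall A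
      have hhU : h ∈ Subgroup.normalizer (U : Set G) := by
        apply norm_of_cj
        have h1 : Grp.cj h U = Grp.cj h T ⊔ Grp.cj h (Subgroup.centralizer (T : Set G)) := Subgroup.map_sup _ _ _
        have h2 : Grp.cj h T ≤ T := cj_le.2 fun a ha => nrm_mem hh.1 ha
        have h3 : Grp.cj h T = T := eq_of_le_of_card_le h2 (by rw [card_cj])
        rw [h1, Fus.cj_centralizer, h3]
      obtain ⟨c, hc, hch⟩ := frat hQ hhU
      have hact : Act T v (c * h) A := by
        have := (hU0 hc : Act T v c 1).mul hh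
        rwa [one_mul] at this
      refine ⟨⟨c * h, hch⟩, ?_, ?_⟩
      · rw [Subgroup.mem_normalizer_iff]
        intro x
        exact Subgroup.mem_normalizer_iff.1 hact.1 x
      · intro t ht
        exact hact.2 t ht

theorem stepC [Fact p.Prime] (hp : p ≠ 2) {G : Type*} [Group G] [Finite G] {S : Subgroup G} (hS : IsSyl p S ⊤)
    (h : Involves ↥(qd p) G) :
    ∃ Q : Subgroup G, Q ≤ S ∧ IsSyl p (FusionSystem.normalizerIn S Q) (FusionSystem.normalizerIn ⊤ Q) ∧
      (∀ x : G, IsPGroup p (Subgroup.zpowers x) → (∀ y ∈ Q, x * y = y * x) → x ∈ Q) ∧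
      Involves ↥(qd p) ↥(Subgroup.normalizer (Q : Set G)) := by
  obtain ⟨Q, hQp, hQc, hQ⟩ := stepB hp h
  have key : ∀ g : G, (∀ x : G, IsPGroup p (Subgroup.zpowers x) → (∀ y ∈ Grp.cj g Q, x * y = y * x) → x ∈ Grp.cj g Q) ∧
      Involves ↥(qd p) ↥(Subgroup.normalizer (Grp.cj g Q : Set G)) := by
    intro g
    constructor
    · intro x hx hxc
      have h1 : g⁻¹ * x * g ∈ Q := by
        apply hQc
        · have : Subgroup.zpowers (g⁻¹ * x * g) = Grp.cj g⁻¹ (Subgroup.zpowers x) := by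
            have h2 := MonoidHom.map_zpowers (MulAut.conj g⁻¹).toMonoidHom x
            rw [Grp.cj, h2]
            congr 1
            simp
          rw [this]
          exact isPGroup_cj hx
        · intro y hy
          have h2 := hxc _ (conj_mem_cj (g := g) hy)
          have h3 : g⁻¹ * x * g * y = g⁻¹ * (x * (g * y * g⁻¹)) * g := by group
          rw [h3, h2]
          group
      exact ⟨_, h1, by simp [mul_assoc]⟩
    · rw [← Fus.cj_normalizer]
      exact H17.Involves.involves_congr_right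
        ((Subgroup.normalizer (Q : Set G)).equivMapOfInjective _ (MulAut.conj g).injective) hQ
  obtain ⟨a, -, haS⟩ := hS.conj (X := Q) le_top hQp
  obtain ⟨b, -, hbS, hb⟩ := Fus.exists_good_grp hS haS
  rw [cj_cj] at hbS hb
  exact ⟨_, hbS, hb, (key _).1, (key _).2⟩

theorem s5206 [Fact p.Prime] (hp : p ≠ 2) {G : Type u} [Group G] [Finite G] (P : Sylow p G) :
    (Cfsg.groupFusionSystem (P : Subgroup G)).IsSectionFree p ↥(Cfsg.qd p) ↔ ¬ Cfsg.Involves ↥(Cfsg.qd p) G := by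
  have hS : IsSyl p (P : Subgroup G) ⊤ := Fus.isSyl_sylow P
  have hSp : IsPGroup p (P : Subgroup G) := P.2
  have hF : (groupFusionSystem (P : Subgroup G)).IsSaturated p := Fus.saturated_gfs P
  constructor
  · intro hfree hinv
    obtain ⟨Q, hQS, hQs, hQc, hQi⟩ := stepC hp hS hinv
    obtain ⟨E, hE⟩ := Fus.exists_normalizerSystem (groupFusionSystem (P : Subgroup G)) Q hQS
    have hfn : (groupFusionSystem (P : Subgroup G)).IsFullyNormalized Q := by
      rw [Fus.gfs_eq]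
      exact (Fus.fn_fss_iff hS).2 ⟨hQS, hQs⟩
    have hzp : ∀ x ∈ (P : Subgroup G), IsPGroup p (Subgroup.zpowers x) := fun x hx =>
      hSp.to_le (by rw [Subgroup.zpowers_le]; exact hx)
    have hcen : (groupFusionSystem (P : Subgroup G)).IsCentric Q := by
      refine ⟨hQS, fun Q' hQ' x hx => ?_⟩
      rw [Fus.gfs_eq, Fus.isConj_fss_iff] at hQ'
      obtain ⟨-, -, g, -, rfl⟩ := hQ'
      obtain ⟨hxS, hxc⟩ := Fus.mem_cen.1 hx
      have h1 : g⁻¹ * x * g ∈ Q := by
        apply hQc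
        · have : Subgroup.zpowers (g⁻¹ * x * g) = Grp.cj g⁻¹ (Subgroup.zpowers x) := by
            have h2 := MonoidHom.map_zpowers (MulAut.conj g⁻¹).toMonoidHom x
            rw [Grp.cj, h2]
            congr 1
            simp
          rw [this]
          exact isPGroup_cj (hzp x hxS)
        · intro y hy
          have h2 := hxc _ (conj_mem_cj (g := g) hy)
          have h3 : g⁻¹ * x * g * y = g⁻¹ * (x * (g * y * g⁻¹)) * g := by group
          rw [h3, ← h2]
          group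
      exact ⟨_, h1, by simp [mul_assoc]⟩
    rw [Fus.nrmIn_top] at hQs
    obtain ⟨W, hWn, ι, hWp, hmod⟩ := Fus.grp_local_model hQS hQs (fun x hx hxy => hQc x (hzp x hx) hxy) hE
    exact hfree Q hfn hcen E hE _ ι hmod (involves_quot qd_pprime W hWp hQi)
  · intro hinv Q hfn hcen E hE L _ ι hmod hL
    apply hinv
    have hQs := hfn
    rw [Fus.gfs_eq] at hQs
    have hQs' := ((Fus.fn_fss_iff hS).1 hQs).2
    rw [Fus.nrmIn_top] at hQs'
    obtain ⟨W, hWn, ι', hWp, hmod'⟩ := Fus.grp_local_model hcen.1 hQs' (fun x hx hxy =>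
      hcen.2 Q (Fus.isConj_refl _ hcen.1) (Fus.mem_cen.2 ⟨hx, fun y hy => (hxy y hy).symm⟩)) hE
    have h1 := Fus.nsys_MD hSp hF hfn hcen hE hmod
    have h2 := Fus.nsys_MD hSp hF hfn hcen hE hmod'
    obtain ⟨φ, -⟩ := Fus.model_unique (hSp.to_le Fus.nrm_le) h1 h2
    have h3 : Involves ↥(qd p) (↥(Subgroup.normalizer (Q : Set G)) ⧸ W) := H17.Involves.involves_congr_right φ hL
    exact H17.Involves.involves_subgroup (H17.Involves.involves_quotient h3)

end Cfsg.Agent.H27.Qd
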