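import Mathlib
import Cfsg.Agent.H27_FusAb

/-! class two groups with `Ω₁(S) = Z(S) ≥ S'` are resistant -/

set_option autoImplicit false
set_option linter.unusedVariables false
set_option linter.unusedSectionVars false

namespace Cfsg.Agent.H27.Fus
open Cfsg Cfsg.FusionSystem Cfsg.Agent.H27.Grp

section
variable {Ω : Type*} [Group Ω] {S : Subgroup Ω} {F : FusionSystem S} {p : ℕ} [Fact p.Prime] [Finite S]

theorem resistant_two (hS : IsPGroup p S) (hF : F.IsSaturated p) {Z : Subgroup Ω} (hZS : Z ≤ S)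
    (hZ : ∀ x ∈ S, x ∈ Z ↔ x * x = 1) (hZc : ∀ z ∈ Z, ∀ s ∈ S, s * z = z * s)
    (hcomm : ∀ x ∈ S, ∀ y ∈ S, x * y * x⁻¹ * y⁻¹ ∈ Z) : F.IsNormal S := by
  have hZst : F.StronglyClosed Z := by
    rw [stronglyClosed_iff]
    refine ⟨hZS, fun P f hf x hx hxZ => ?_⟩
    have h1 := (hZ x (hZS hxZ)).1 hxZ
    refine (hZ _ (hf.mem hx)).2 ?_
    rw [← hf.mul hx hx, h1, hf.one]
  refine normal_of_fin_chain hS hF (strongly_top F) 2 ![⊥, Z, S] rfl rfl ?_ ?_ ?_
  · refine Fin.monotone_iff_le_succ.2 fun i => ?_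
    fin_cases i
    · exact bot_le
    · exact hZS
  · intro i
    fin_cases i
    · exact StronglyClosed.weakly (IsNormal.strong (isNormal_bot F))
    · exact StronglyClosed.weakly hZst
  · intro i
    fin_cases i
    · show ⁅S, Z⁆ ≤ ⊥
      rw [Subgroup.commutator_le]
      intro a ha b hb
      rw [Subgroup.mem_bot, commutatorElement_eq_one_iff_mul_comm]
      exact hZc b hb a ha
    · show ⁅S, S⁆ ≤ Z
      rw [Subgroup.commutator_le]
      intro a ha b hb
      exact hcomm a ha b hb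

end

end Cfsg.Agent.H27.Fus
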