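import Mathlib
import Cfsg.Agent.H27_Bs11

/-! Quotients isomorphic to `C_p ≀ C_p`. -/

set_option autoImplicit false

namespace Cfsg.Agent.H27.Yo

open Equiv

universe u

/-- the order of a Sylow `p`-subgroup of the symmetric group of degree `p²` -/
theorem card_sylow_perm {p : ℕ} [hp : Fact p.Prime] (P : Sylow p (Perm (Fin (p ^ 2)))) : Nat.card P = p ^ (p + 1) := by
  rw [P.card_eq_multiplicity, Nat.card_eq_fintype_card, Fintype.card_perm, Fintype.card_fin]
  congr 1
  have h1 := sub_one_mul_padicValNat_factorial (p := p) (p ^ 2)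
  have h2 : (Nat.digits p (p ^ 2)).sum = 1 := by
    have := Nat.digits_base_pow_mul (b := p) (k := 2) (m := 1) hp.out.one_lt one_pos
    rw [mul_one] at this
    rw [this, Nat.digits_of_lt p 1 one_ne_zero hp.out.one_lt]
    simp
  rw [Nat.factorization_def _ hp.out]
  rw [h2] at h1
  have hp1 : 0 < p - 1 := Nat.sub_pos_of_lt hp.out.one_lt
  have h3 : p ^ 2 - 1 = (p - 1) * (p + 1) := by
    obtain ⟨q, hq⟩ : ∃ q, p = q + 1 := ⟨p - 1, (Nat.succ_pred_prime hp.out).symm⟩
    subst hq
    simp only [Nat.add_sub_cancel]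
    have : (q + 1) ^ 2 = q * (q + 1 + 1) + 1 := by ring
    rw [this, Nat.add_sub_cancel]
  rw [h3] at h1
  exact Nat.eq_of_mul_eq_mul_left hp1 h1

section
variable {G : Type u} [Group G] {p : ℕ} [hp : Fact p.Prime] {A : Type} [CommGroup A] {K : Type u}
  [MulAction G K]

/-- the base permutations -/
def bs : (K → A) →* Perm (A × K) where
  toFun w :=
    { toFun := fun z => (z.1 * w z.2, z.2)
      invFun := fun z => (z.1 * (w z.2)⁻¹, z.2)
      left_inv := fun z => by simp
      right_inv := fun z => by simp }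
  map_one' := by ext z <;> simp
  map_mul' v w := by
    ext z
    · simp [mul_comm (v z.2), mul_assoc]
    · simp

theorem bs_apply (w : K → A) (z : A × K) : bs w z = (z.1 * w z.2, z.2) := rfl

theorem bs_inj : Function.Injective (bs : (K → A) →* Perm (A × K)) := by
  intro v w h
  funext k
  have h1 : bs v (1, k) = bs w (1, k) := by rw [h]
  rw [bs_apply, bs_apply] at h1
  have h2 := congrArg Prod.fst h1
  simpa using h2

/-- the monomial representation attached to a cocycle -/
def psi (W : G → K → A) (hW : ∀ s t k, W (s * t) k = W s (t • k) * W t k) : G →* Perm (A × K) :=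
  MonoidHom.toHomPerm
    { toFun := fun s z => (z.1 * W s z.2, s • z.2)
      map_one' := by
        funext z
        have h1 : W 1 z.2 = 1 := by
          have := hW 1 1 z.2
          rw [mul_one, one_smul] at this
          exact mul_eq_left.1 this.symm
        show (z.1 * W 1 z.2, (1 : G) • z.2) = z
        rw [h1, one_smul, mul_one]
      map_mul' := by
        intro s t
        funext z
        show (z.1 * W (s * t) z.2, (s * t) • z.2) = (z.1 * W t z.2 * W s (t • z.2), s • t • z.2)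
        rw [hW, mul_smul, mul_assoc, mul_comm (W t z.2)] }

theorem psi_apply (W : G → K → A) (hW : ∀ s t k, W (s * t) k = W s (t • k) * W t k) (s : G) (z : A × K) :
    psi W hW s z = (z.1 * W s z.2, s • z.2) := rfl

theorem psi_bs (W : G → K → A) (hW : ∀ s t k, W (s * t) k = W s (t • k) * W t k) (s : G) (w : K → A) :
    psi W hW s * bs w * (psi W hW s)⁻¹ = bs (fun k => w (s⁻¹ • k)) := by
  rw [mul_inv_eq_iff_eq_mul]
  ext z
  · simp only [Perm.mul_apply, psi_apply, bs_apply, inv_smul_smul]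
    rw [mul_right_comm]
  · simp only [Perm.mul_apply, psi_apply, bs_apply]

/-- a nontrivial transfer makes the monomial image contain the whole base group -/
theorem base_le [Finite G] [Fintype K] (hG : IsPGroup p G) [MulAction.IsPretransitive G K] (hA : Nat.card A = p)
    (W : G → K → A) (hW : ∀ s t k, W (s * t) k = W s (t • k) * W t k) {x : G} (hxK : ∀ k : K, x • k = k)
    (hx : ∏ k, W x k ≠ 1) : (bs : (K → A) →* Perm (A × K)).range ≤ (psi W hW).range := by
  classical
  haveI : Finite A := Nat.finite_of_card_ne_zero (by rw [hA]; exact hp.out.ne_zero)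
  have hAp : ∀ a : A, a ^ p = 1 := by intro a; rw [← hA]; exact pow_card_eq_one'
  set V := (bs : (K → A) →* Perm (A × K)).range with hV
  set R := (psi W hW).range with hR
  have hVp : IsPGroup p V := by
    rintro ⟨_, w, rfl⟩
    refine ⟨1, Subtype.ext ?_⟩
    show (bs w) ^ (p ^ 1) = 1
    rw [← map_pow, pow_one]
    have : w ^ p = 1 := by funext k; exact hAp _
    rw [this, map_one]
  have hRp : IsPGroup p R := hG.of_surjective (psi W hW).rangeRestrict (MonoidHom.rangeRestrict_surjective _)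
  have hRV : R ≤ Subgroup.normalizer (V : Set (Perm (A × K))) := by
    rintro _ ⟨s, rfl⟩
    rw [Subgroup.mem_normalizer_iff]
    have key : ∀ (t : G) y, y ∈ V → psi W hW t * y * (psi W hW t)⁻¹ ∈ V := by
      rintro t _ ⟨w, rfl⟩
      exact ⟨_, (psi_bs W hW t w).symm⟩
    intro y
    refine ⟨key s y, fun h => ?_⟩
    have h1 := key s⁻¹ _ h
    rw [map_inv, inv_inv] at h1
    have h2 : (psi W hW s)⁻¹ * (psi W hW s * y * (psi W hW s)⁻¹) * psi W hW s = y := by group
    rwa [h2] at h1
  have hVc : ∀ y ∈ V, ∀ z ∈ V, y * z * y⁻¹ = z := by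
    rintro _ ⟨v, rfl⟩ _ ⟨w, rfl⟩
    rw [← map_mul, mul_comm, map_mul, mul_inv_cancel_right]
  set E := R ⊔ V with hE
  have hEp : IsPGroup p E := hRp.to_sup_of_normal_right' hVp hRV
  have hEV : E ≤ Subgroup.normalizer (V : Set (Perm (A × K))) := sup_le hRV Subgroup.le_normalizer
  have hEN : E ≤ Subgroup.normalizer ((R ⊓ V : Subgroup (Perm (A × K))) : Set (Perm (A × K))) := by
    refine sup_le ?_ ?_
    · intro r hr
      rw [Subgroup.mem_normalizer_iff]
      intro y
      have h1 := Subgroup.mem_normalizer_iff.1 (hRV hr) y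
      have h2 := Subgroup.mem_normalizer_iff.1 (Subgroup.le_normalizer (H := R) hr) y
      exact and_congr h2 h1
    · intro v hv
      rw [Subgroup.mem_normalizer_iff]
      intro y
      have key : ∀ v ∈ V, ∀ y, y ∈ R ⊓ V → v * y * v⁻¹ ∈ R ⊓ V := fun v hv y hy => by
        rw [hVc v hv y hy.2]; exact hy
      refine ⟨key v hv y, fun h => ?_⟩
      have h1 := key v⁻¹ (V.inv_mem hv) _ h
      have h2 : v⁻¹ * (v * y * v⁻¹) * v⁻¹⁻¹ = y := by group
      rwa [h2] at h1
  haveI hn1 : ((R ⊓ V).subgroupOf E).Normal := ⟨fun y hy g =>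
    (Subgroup.mem_normalizer_iff.1 (hEN g.2) y).1 hy⟩
  haveI hn2 : (V.subgroupOf E).Normal := ⟨fun y hy g => (Subgroup.mem_normalizer_iff.1 (hEV g.2) y).1 hy⟩
  by_contra hne
  have hlt : (R ⊓ V).subgroupOf E < V.subgroupOf E := by
    refine lt_of_le_of_ne (fun y hy => hy.2) fun h => hne ?_
    intro v hv
    have h1 : (⟨v, (le_sup_right : V ≤ E) hv⟩ : E) ∈ V.subgroupOf E := hv
    rw [← h] at h1
    exact h1.1
  haveI : Finite E := inferInstance
  obtain ⟨B, hB, l, hl1, hl2, -, hl4, t, ht, hlt⟩ := Cfsg.Agent.H27.Bs.exists_sep hEp hlt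
  have hbE : ∀ w : K → A, bs w ∈ E := fun w => (le_sup_right : V ≤ E) ⟨w, rfl⟩
  let m : (K → A) →* B :=
    { toFun := fun w => l ⟨bs w, hbE w⟩
      map_one' := by
        have h1 : (⟨bs (1 : K → A), hbE 1⟩ : E) = 1 := Subtype.ext (map_one bs)
        rw [h1]
        have := hl1 1 (Subgroup.one_mem _) 1 (Subgroup.one_mem _)
        rw [mul_one] at this
        exact mul_eq_left.1 this.symm
      map_mul' := by
        intro v w
        have h1 : (⟨bs (v * w), hbE _⟩ : E) = ⟨bs v, hbE v⟩ * ⟨bs w, hbE w⟩ := Subtype.ext (map_mul bs v w)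
        rw [h1]
        exact hl1 _ ⟨v, rfl⟩ _ ⟨w, rfl⟩ }
  have hm : ∀ w, m w = l ⟨bs w, hbE w⟩ := fun _ => rfl
  have hL : ∀ (s : G) (k : K) (a : A), m (Pi.mulSingle (s • k) a) = m (Pi.mulSingle k a) := by
    intro s k a
    have h1 := hl2 ⟨psi W hW s, (le_sup_left : R ≤ E) ⟨s, rfl⟩⟩ ⟨bs (Pi.mulSingle k a), hbE _⟩ ⟨_, rfl⟩
    rw [hm, hm, ← h1]
    congr 1
    apply Subtype.ext
    show bs (Pi.mulSingle (s • k) a) = psi W hW s * bs (Pi.mulSingle k a) * (psi W hW s)⁻¹
    rw [psi_bs]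
    congr 1
    funext k'
    by_cases h : k' = s • k
    · subst h; simp
    · have h' : s⁻¹ • k' ≠ k := fun h' => h (by rw [← h']; simp)
      rw [Pi.mulSingle_eq_of_ne h, Pi.mulSingle_eq_of_ne h']
  obtain ⟨k₀⟩ : Nonempty K := by
    rcases isEmpty_or_nonempty K with h | h
    · exact absurd (by rw [Finset.univ_eq_empty, Finset.prod_empty]) hx
    · exact h
  have hL' : ∀ (k : K) (a : A), m (Pi.mulSingle k a) = m (Pi.mulSingle k₀ a) := by
    intro k a
    obtain ⟨s, rfl⟩ := MulAction.exists_smul_eq G k₀ k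
    exact hL s k₀ a
  let L : A →* B := m.comp (MonoidHom.mulSingle (fun _ : K => A) k₀)
  have hmL : ∀ w, m w = L (∏ k, w k) := by
    intro w
    have h1 : w = ∏ k, Pi.mulSingle k (w k) := (Finset.univ_prod_mulSingle w).symm
    conv_lhs => rw [h1]
    rw [map_prod, map_prod]
    exact Finset.prod_congr rfl fun k _ => hL' k (w k)
  have hx0 : m (W x) = 1 := by
    rw [hm]
    apply hl4
    have h1 : bs (W x) = psi W hW x := by
      ext z
      · rfl
      · rw [bs_apply, psi_apply]; exact (hxK z.2).symm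
    refine ⟨?_, ⟨W x, rfl⟩⟩
    show bs (W x) ∈ R
    rw [h1]; exact ⟨x, rfl⟩
  rw [hmL] at hx0
  have hLker : L.ker = ⊤ := by
    haveI : Fact (Nat.card A).Prime := ⟨by rw [hA]; exact hp.out⟩
    rcases Subgroup.eq_bot_or_eq_top_of_prime_card L.ker with h | h
    · exact absurd ((Subgroup.mem_bot.1 (h ▸ (show _ ∈ L.ker from hx0)))) hx
    · exact h
  obtain ⟨w, hw⟩ := ht
  apply hlt
  have h1 : t = ⟨bs w, hbE w⟩ := Subtype.ext hw.symm
  rw [h1, ← hm, hmL]
  have : (∏ k, w k) ∈ L.ker := by rw [hLker]; trivial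
  exact this

theorem wreath_quot [Finite G] [Fintype K] (hG : IsPGroup p G) [MulAction.IsPretransitive G K] (hA : Nat.card A = p)
    (hK : Nat.card K = p) (W : G → K → A) (hW : ∀ s t k, W (s * t) k = W s (t • k) * W t k) {x : G}
    (hxK : ∀ k : K, x • k = k) (hx : ∏ k, W x k ≠ 1) :
    ∃ (Wp : Sylow p (Perm (Fin (p ^ 2)))) (f : G →* ↥(Wp : Subgroup (Perm (Fin (p ^ 2))))), Function.Surjective f := by
  classical
  haveI : Finite A := Nat.finite_of_card_ne_zero (by rw [hA]; exact hp.out.ne_zero)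
  haveI : Finite (A × K) := inferInstance
  have hc : Nat.card (A × K) = p ^ 2 := by rw [Nat.card_prod, hA, hK, pow_two]
  obtain ⟨e⟩ : Nonempty (A × K ≃ Fin (p ^ 2)) := ⟨Finite.equivFinOfCardEq hc⟩
  let ψ : G →* Perm (Fin (p ^ 2)) := (e.permCongrHom : Perm (A × K) ≃* Perm (Fin (p ^ 2))).toMonoidHom.comp (psi W hW)
  have hψp : IsPGroup p ψ.range := hG.of_surjective ψ.rangeRestrict (MonoidHom.rangeRestrict_surjective _)
  obtain ⟨Wp, hWp⟩ := hψp.exists_le_sylow
  have hcψ : Nat.card ψ.range = Nat.card (psi W hW).range := by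
    have : ψ.range = (psi W hW).range.map (e.permCongrHom : Perm (A × K) ≃* Perm (Fin (p ^ 2))).toMonoidHom := by
      rw [MonoidHom.range_comp]
    rw [this]
    exact (Nat.card_congr ((psi W hW).range.equivMapOfInjective _
      (e.permCongrHom : Perm (A × K) ≃* Perm (Fin (p ^ 2))).injective).toEquiv).symm
  have hcV : Nat.card (bs : (K → A) →* Perm (A × K)).range = p ^ p := by
    rw [← Nat.card_congr (MonoidHom.ofInjective (bs_inj (A := A) (K := K))).toEquiv, Nat.card_fun, hA, hK]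
  have hVR := base_le hG hA W hW hxK hx
  have hlt : (bs : (K → A) →* Perm (A × K)).range < (psi W hW).range := by
    refine lt_of_le_of_ne hVR fun h => ?_
    haveI : Nontrivial K := Finite.one_lt_card_iff_nontrivial.1 (by rw [hK]; exact hp.out.one_lt)
    obtain ⟨k, k', hkk⟩ := exists_pair_ne K
    obtain ⟨s, rfl⟩ := MulAction.exists_smul_eq G k k'
    have h1 : psi W hW s ∈ (bs : (K → A) →* Perm (A × K)).range := by rw [h]; exact ⟨s, rfl⟩
    obtain ⟨w, hw⟩ := h1
    have h2 : bs w (1, k) = psi W hW s (1, k) := by rw [hw]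
    rw [bs_apply, psi_apply] at h2
    exact hkk (congrArg Prod.snd h2)
  have hcR : p ^ p < Nat.card (psi W hW).range := by
    rw [← hcV]
    apply Set.ncard_lt_ncard _ (Set.toFinite _)
    exact hlt
  obtain ⟨n, hn⟩ := IsPGroup.iff_card.1 hψp
  have h1 : p + 1 ≤ n := by
    rw [← hcψ, hn] at hcR
    exact (Nat.pow_lt_pow_iff_right hp.out.one_lt).1 hcR
  have h2 : Nat.card (Wp : Subgroup (Perm (Fin (p ^ 2)))) ≤ Nat.card ψ.range := by
    have := card_sylow_perm Wp
    rw [hn]
    exact this.le.trans (Nat.pow_le_pow_right hp.out.pos h1)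
  have heq : ψ.range = (Wp : Subgroup (Perm (Fin (p ^ 2)))) := Subgroup.eq_of_le_of_card_ge hWp h2
  refine ⟨Wp, ψ.codRestrict _ fun g => hWp ⟨g, rfl⟩, ?_⟩
  rintro ⟨y, hy⟩
  rw [← heq] at hy
  obtain ⟨g, rfl⟩ := hy
  exact ⟨g, rfl⟩

end

end Cfsg.Agent.H27.Yo
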