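import Mathlib
import Cfsg.Agent.H27_Yo1
import Cfsg.Agent.H27_Bs8
import Cfsg.Agent.H2_PGroup

/-! Yoshida's theorem for fusion systems. -/

set_option autoImplicit false

namespace Cfsg.Agent.H27.Yo

open Equiv Cfsg.FusionSystem Cfsg.Agent.H27.Fus Cfsg.Agent.H27.Grp Cfsg.Agent.H27.Bs

universe u

section
variable {G : Type u} [Group G] {p : ℕ} [hp : Fact p.Prime] {A : Type} [CommGroup A] {K : Type u} [MulAction G K]

theorem W_pow (W : G → K → A) (hW : ∀ s t k, W (s * t) k = W s (t • k) * W t k) (x : G) (k : K) (n : ℕ) :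
    W (x ^ n) k = ∏ r ∈ Finset.range n, W x (x ^ r • k) := by
  induction n with
  | zero =>
    have := hW 1 1 k
    rw [mul_one, one_smul] at this
    rw [pow_zero, Finset.range_zero, Finset.prod_empty]
    exact mul_eq_left.1 this.symm
  | succ n ih => rw [pow_succ', hW, ih, Finset.prod_range_succ, mul_comm]

theorem prod_eq_pow [Finite G] (M : Subgroup G) [M.Normal] (hM : M.index = p) [Fintype (G ⧸ M)]
    (W : G → G ⧸ M → A)
    (hW : ∀ s t (k : G ⧸ M), W (s * t) k = W s (t • k) * W t k) {x : G} (hx : x ∉ M) :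
    ∏ k, W x k = W (x ^ p) ((1 : G) : G ⧸ M) := by
  classical
  rw [W_pow W hW]
  have hinj : Set.InjOn (fun r => x ^ r • ((1 : G) : G ⧸ M)) (Finset.range p : Set ℕ) := by
    have key : ∀ a b : ℕ, a < b → b < p → x ^ a • ((1 : G) : G ⧸ M) ≠ x ^ b • ((1 : G) : G ⧸ M) := by
      intro a b hab hb h
      have h1 : ((x ^ a * 1 : G) : G ⧸ M) = ((x ^ b * 1 : G) : G ⧸ M) := h
      rw [mul_one, mul_one, QuotientGroup.eq] at h1
      have h2 : (x ^ a)⁻¹ * x ^ b = x ^ (b - a) := by
        rw [inv_mul_eq_iff_eq_mul, ← pow_add]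
        congr 1; omega
      rw [h2] at h1
      apply hx
      have hcop : Nat.Coprime (b - a) p := by
        rw [Nat.coprime_comm]
        exact (Nat.Prime.coprime_iff_not_dvd hp.out).2 (Nat.not_dvd_of_pos_of_lt (by omega) (by omega))
      have h3 : x ^ p ∈ M := by rw [← hM]; exact Subgroup.pow_index_mem M x
      have h4 : (1 : ℤ) = (b - a : ℕ) * Nat.gcdA (b - a) p + (p : ℕ) * Nat.gcdB (b - a) p := by
        have := Nat.gcd_eq_gcd_ab (b - a) p
        rw [hcop] at this
        exact_mod_cast this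
      rw [← zpow_one x, h4, zpow_add, zpow_mul, zpow_mul, zpow_natCast, zpow_natCast]
      exact M.mul_mem (M.zpow_mem h1 _) (M.zpow_mem h3 _)
    intro a ha b hb hab
    have ha' : a < p := by simpa using ha
    have hb' : b < p := by simpa using hb
    rcases lt_trichotomy a b with h | h | h
    · exact absurd hab (key a b h hb')
    · exact h
    · exact absurd hab.symm (key b a h ha')
  have himg : (Finset.range p).image (fun r => x ^ r • ((1 : G) : G ⧸ M)) = Finset.univ := by
    apply Finset.eq_univ_of_card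
    rw [Finset.card_image_of_injOn hinj, Finset.card_range, ← hM, Subgroup.index, Nat.card_eq_fintype_card]
  rw [← himg, Finset.prod_image hinj]

end

section
variable {Ω : Type u} [Group Ω] {S : Subgroup Ω} {F : FusionSystem S} {P Q R : Subgroup Ω} {f g : Ω → Ω}
  {p : ℕ} [hp : Fact p.Prime] {A : Type} [CommGroup A]

theorem yoshida [Finite S] (hS : IsPGroup p S) (hF : F.IsSaturated p) (hA : Nat.card A = p) (l : ↥S →* A)
    (h1 : ∀ f, Iso F S S f → ∀ a b : ↥S, (b : Ω) = f a → l b = l a) {x₀ : ↥S} (hx₀ : (x₀ : Ω) ∈ F.focalSubgroup)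
    (hx₀l : l x₀ ≠ 1) :
    ∃ (Wp : Sylow p (Perm (Fin (p ^ 2)))) (f : ↥S →* ↥(Wp : Subgroup (Perm (Fin (p ^ 2))))), Function.Surjective f := by
  classical
  haveI : Finite A := Nat.finite_of_card_ne_zero (by rw [hA]; exact hp.out.ne_zero)
  have hAp : ∀ a : A, a ^ p = 1 := by intro a; rw [← hA]; exact pow_card_eq_one'
  have hcopA : ∀ (a : A) (m : ℕ), ¬ p ∣ m → a ^ m = 1 → a = 1 := by
    intro a m hm h
    have h9 : orderOf a ∣ Nat.gcd p m := Nat.dvd_gcd (orderOf_dvd_of_pow_eq_one (hAp a)) (orderOf_dvd_of_pow_eq_one h)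
    rw [(Nat.Prime.coprime_iff_not_dvd hp.out).2 hm] at h9
    exact orderOf_eq_one_iff.1 (Nat.dvd_one.1 h9)
  -- an element of minimal order
  obtain ⟨x, ⟨hxf, hxl⟩, hmin⟩ := Set.exists_min_image {y : ↥S | (y : Ω) ∈ F.focalSubgroup ∧ l y ≠ 1} orderOf
    (Set.toFinite _) ⟨x₀, hx₀, hx₀l⟩
  obtain ⟨I, hI, B, hB⟩ := exists_charCB hS hF
  have hV := B.V_foc l hxf
  rw [B.V_apply] at hV
  let I₀ : I → Prop := fun j => ∀ s, B.act s j = j
  have hI₀ : ¬ p ∣ (Finset.univ.filter I₀).card := by
    letI : MulAction ↥S I := MulAction.compHom I B.act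
    have h2 := hS.card_modEq_card_fixedPoints I
    have h3 : Nat.card (MulAction.fixedPoints ↥S I) = (Finset.univ.filter I₀).card := by
      rw [Nat.card_eq_fintype_card, ← Fintype.card_subtype]
      apply Fintype.card_congr
      exact Equiv.subtypeEquivRight fun j => Iff.rfl
    rw [h3, Nat.card_eq_fintype_card] at h2
    intro h4
    exact hB ((Nat.modEq_zero_iff_dvd.1 (h2.trans (Nat.modEq_zero_iff_dvd.2 h4))))
  let orb : I → Finset I := fun j => Finset.univ.filter (fun i => ∃ s, B.act s j = i)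
  have hex : ∃ j, ¬ I₀ j ∧ ∏ i ∈ orb j, l (B.c x i) ≠ 1 := by
    by_contra hno
    push Not at hno
    let r : Setoid I :=
      { r := fun i j => ∃ k, B.act k i = j
        iseqv := by
          refine ⟨fun i => ⟨1, by simp⟩, ?_, ?_⟩
          · rintro i j ⟨k, rfl⟩
            exact ⟨k⁻¹, by rw [map_inv]; simp⟩
          · rintro i j l ⟨k, rfl⟩ ⟨k', rfl⟩
            exact ⟨k' * k, by rw [map_mul]; rfl⟩ }
    let h : I → A := fun j => if I₀ j then 1 else l (B.c x j)
    have hh : ∏ j, h j = 1 := by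
      rw [← Finset.prod_fiberwise Finset.univ (fun j => Quotient.mk r j) h]
      apply Finset.prod_eq_one
      intro ω _
      induction ω using Quotient.inductionOn with
      | _ j =>
      have hfib : Finset.univ.filter (fun i => Quotient.mk r i = Quotient.mk r j) = orb j := by
        ext i
        simp only [orb, Finset.mem_filter, Finset.mem_univ, true_and]
        constructor
        · intro h'; exact Quotient.exact h'.symm
        · intro h'; exact (Quotient.sound h').symm
      rw [hfib]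
      by_cases hj : I₀ j
      · apply Finset.prod_eq_one
        intro i hi
        obtain ⟨s, hs⟩ := (Finset.mem_filter.1 hi).2
        have : i = j := by rw [← hs]; exact hj s
        rw [this]; exact if_pos hj
      · rw [← hno j hj]
        apply Finset.prod_congr rfl
        intro i hi
        obtain ⟨s, hs⟩ := (Finset.mem_filter.1 hi).2
        apply if_neg
        intro hi0
        apply hj
        have h5 : j = i := by
          rw [← hi0 s⁻¹, ← hs, map_inv]; simp
        rw [h5]; exact hi0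
    have h6 : ∏ j, l (B.c x j) = (∏ j, if I₀ j then l x else 1) * ∏ j, h j := by
      rw [← Finset.prod_mul_distrib]
      apply Finset.prod_congr rfl
      intro j _
      by_cases hj : I₀ j
      · simp only [h, if_pos hj, mul_one]
        obtain ⟨P, f, hf, h7, h8⟩ := B.map j
        have hPS : P = S := by
          apply le_antisymm hf.le
          intro s hs
          exact (h7 ⟨s, hs⟩).2 (hj _)
        subst hPS
        have hfi : Iso F P P f := iso_of_card_le hf (fun x hx => hf.mem hx) le_rfl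
        exact h1 f hfi x _ (h8 x (hj x))
      · simp only [h, if_neg hj, one_mul]
    rw [hV, hh, mul_one, Finset.prod_ite, Finset.prod_const_one, mul_one, Finset.prod_const] at h6
    exact hxl (hcopA _ _ hI₀ h6.symm)
  obtain ⟨j₀, hj₀, hP⟩ := hex
  have hstab : stb B.act j₀ ≠ ⊤ := by
    intro h
    apply hj₀
    intro s
    have : s ∈ stb B.act j₀ := by rw [h]; trivial
    exact this
  obtain ⟨M, hM, hMle⟩ := (eq_top_or_exists_le_coatom (stb B.act j₀)).resolve_left hstab
  haveI hMn : M.Normal := H2.PGroup.coatom_normal hS hM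
  have hMi : M.index = p := H2.PGroup.coatom_index hS hM
  haveI : Fintype (↥S ⧸ M) := Fintype.ofFinite _
  let κ : I → ↥S ⧸ M := fun i => if h : ∃ s, B.act s j₀ = i then ((h.choose : ↥S) : ↥S ⧸ M) else ((1 : ↥S) : ↥S ⧸ M)
  have hκ : ∀ s, κ (B.act s j₀) = ((s : ↥S) : ↥S ⧸ M) := by
    intro s
    have h : ∃ t, B.act t j₀ = B.act s j₀ := ⟨s, rfl⟩
    simp only [κ, dif_pos h]
    rw [QuotientGroup.eq]
    apply hMle
    rw [mem_stb, map_mul, Perm.mul_apply, map_inv, Perm.inv_eq_iff_eq]
    exact h.choose_spec.symm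
  have hκ2 : ∀ t i, i ∈ orb j₀ → κ (B.act t i) = t • κ i := by
    intro t i hi
    obtain ⟨s, rfl⟩ := (Finset.mem_filter.1 hi).2
    rw [hκ, ← Perm.mul_apply, ← map_mul, hκ]; rfl
  have horb : ∀ t i, i ∈ orb j₀ ↔ B.act t i ∈ orb j₀ := by
    intro t i
    simp only [orb, Finset.mem_filter, Finset.mem_univ, true_and]
    constructor
    · rintro ⟨s, rfl⟩; exact ⟨t * s, by rw [map_mul]; rfl⟩
    · rintro ⟨s, hs⟩
      exact ⟨t⁻¹ * s, by rw [map_mul, Perm.mul_apply, hs, map_inv]; simp⟩
  have hmf : ∀ i (k : ↥S ⧸ M), i ∈ (orb j₀).filter (fun i => κ i = k) ↔ i ∈ orb j₀ ∧ κ i = k :=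
    fun i k => Finset.mem_filter
  let W : ↥S → ↥S ⧸ M → A := fun s k => ∏ i ∈ (orb j₀).filter (fun i => κ i = k), l (B.c s i)
  have hW : ∀ s t (k : ↥S ⧸ M), W (s * t) k = W s (t • k) * W t k := by
    intro s t k
    have e1 : W (s * t) k = (∏ i ∈ (orb j₀).filter (fun i => κ i = k), l (B.c s (B.act t i))) * W t k := by
      show ∏ i ∈ (orb j₀).filter (fun i => κ i = k), l (B.c (s * t) i) = _
      rw [← Finset.prod_mul_distrib]
      apply Finset.prod_congr rfl
      intro i _
      rw [B.coc, map_mul]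
    rw [e1]
    congr 1
    refine Finset.prod_equiv (B.act t) (fun i => ?_) (fun i _ => rfl)
    rw [hmf, hmf, ← horb t i]
    refine and_congr_right fun hi => ?_
    rw [hκ2 t i hi]
    exact (smul_left_cancel_iff t).symm
  have hprodW : ∏ k, W x k ≠ 1 := by
    rw [Finset.prod_fiberwise]; exact hP
  -- `x` lies in `M`
  have hxM : x ∈ M := by
    by_contra hxM
    apply hprodW
    rw [prod_eq_pow M hMi W hW hxM]
    have hxpM : x ^ p ∈ M := by rw [← hMi]; exact Subgroup.pow_index_mem M x
    have hox : orderOf (x ^ p) < orderOf x := by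
      obtain ⟨n, hn⟩ := IsPGroup.iff_orderOf.1 hS x
      have hn0 : n ≠ 0 := by
        rintro rfl
        rw [pow_zero, orderOf_eq_one_iff] at hn
        exact hxl (by rw [hn, map_one])
      obtain ⟨m, rfl⟩ := Nat.exists_eq_succ_of_ne_zero hn0
      have h2 : orderOf (x ^ p) ∣ p ^ m := by
        apply orderOf_dvd_of_pow_eq_one
        rw [← pow_mul, ← pow_succ', ← hn, pow_orderOf_eq_one]
      rw [hn]
      exact (Nat.le_of_dvd (pow_pos hp.out.pos _) h2).trans_lt (Nat.pow_lt_pow_right hp.out.one_lt (Nat.lt_succ_self m))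
    let e : ↥(Subgroup.zpowers (x ^ p)) → I → A := fun b i =>
      if i ∈ (orb j₀).filter (fun i => κ i = ((1 : ↥S) : ↥S ⧸ M)) then l (B.c b i) else 1
    have hcob := cob (B.act.comp (Subgroup.zpowers (x ^ p)).subtype) e (by
      intro a b i
      have hb : (b : ↥S) ∈ M := (Subgroup.zpowers_le.2 hxpM) b.2
      have hmem : i ∈ (orb j₀).filter (fun i => κ i = ((1 : ↥S) : ↥S ⧸ M)) ↔
          B.act b i ∈ (orb j₀).filter (fun i => κ i = ((1 : ↥S) : ↥S ⧸ M)) := by
        rw [hmf, hmf, ← horb b i]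
        refine and_congr_right fun hi => ?_
        rw [hκ2 b i hi]
        have hb1 : ∀ k : ↥S ⧸ M, (b : ↥S) • k = k := by
          intro k
          obtain ⟨s, rfl⟩ := QuotientGroup.mk_surjective k
          show ((b * s : ↥S) : ↥S ⧸ M) = s
          rw [eq_comm, QuotientGroup.eq, ← mul_assoc]
          have := hMn.conj_mem _ hb s⁻¹
          rwa [inv_inv] at this
        rw [hb1]
      by_cases hi : i ∈ (orb j₀).filter (fun i => κ i = ((1 : ↥S) : ↥S ⧸ M))
      · have hi' := hmem.1 hi
        show (if _ then _ else _) = (if _ then _ else _) * (if _ then _ else _)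
        rw [if_pos hi, if_pos hi]
        rw [if_pos (show (B.act.comp (Subgroup.zpowers (x ^ p)).subtype) b i ∈ _ from hi')]
        rw [Subgroup.coe_mul, B.coc, map_mul]
        rfl
      · have hi' := fun h => hi (hmem.2 h)
        show (if _ then _ else _) = (if _ then _ else _) * (if _ then _ else _)
        rw [if_neg hi, if_neg hi]
        rw [if_neg (show ¬ (B.act.comp (Subgroup.zpowers (x ^ p)).subtype) b i ∈ _ from hi'), one_mul]) (by
      rintro ⟨b, hb⟩ i hbi
      have hbi' : B.act b i = i := hbi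
      by_cases hi : i ∈ (orb j₀).filter (fun i => κ i = ((1 : ↥S) : ↥S ⧸ M))
      · refine (if_pos hi).trans ?_
        by_contra hne
        obtain ⟨P, f, hf, h2, h3⟩ := B.map i
        have hbP := (h2 b).2 hbi'
        have hbf : (b : Ω) ∈ F.focalSubgroup := by
          obtain ⟨n, rfl⟩ := Subgroup.mem_zpowers_iff.1 hb
          exact Subgroup.zpow_mem _ (Subgroup.pow_mem _ hxf p) n
        have hcf : (B.c b i : Ω) ∈ F.focalSubgroup := by
          rw [h3 b hbi']
          have h8 := Subgroup.mul_mem _ hbf (mem_foc hf hbP)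
          rwa [mul_inv_cancel_left] at h8
        have h4 := hmin (B.c b i) ⟨hcf, hne⟩
        have h5 : orderOf (B.c b i) ∣ orderOf b := by
          apply orderOf_dvd_of_pow_eq_one
          apply Subtype.ext
          rw [Subgroup.coe_pow, h3 b hbi', ← hf.pow hbP, ← Subgroup.coe_pow, pow_orderOf_eq_one]
          exact hf.one
        have h6 : orderOf b ∣ orderOf (x ^ p) := orderOf_dvd_of_mem_zpowers hb
        have h7 := Nat.le_of_dvd (orderOf_pos _) (h5.trans h6)
        omega
      · exact if_neg hi) ⟨x ^ p, Subgroup.mem_zpowers _⟩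
    show ∏ i ∈ (orb j₀).filter (fun i => κ i = ((1 : ↥S) : ↥S ⧸ M)), l (B.c (x ^ p) i) = 1
    rw [← hcob]
    show _ = ∏ i, if i ∈ (orb j₀).filter (fun i => κ i = ((1 : ↥S) : ↥S ⧸ M)) then l (B.c (x ^ p) i) else 1
    rw [Finset.prod_ite_mem, Finset.univ_inter]
  refine wreath_quot hS hA (K := ↥S ⧸ M) hMi W hW (x := x) (fun k => ?_) hprodW
  obtain ⟨s, rfl⟩ := QuotientGroup.mk_surjective k
  show ((x * s : ↥S) : ↥S ⧸ M) = s
  rw [eq_comm, QuotientGroup.eq, ← mul_assoc]
  have := hMn.conj_mem _ hxM s⁻¹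
  rwa [inv_inv] at this

end

end Cfsg.Agent.H27.Yo
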