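import Mathlib
import Cfsg.Agent.H27_Yo2
import Cfsg.Agent.H27_Bs11
import Cfsg.Agent.H27_FusMk
import Cfsg.Agent.H27_FusSat

/-! Yoshida's theorem for fusion systems: assembling. -/

set_option autoImplicit false

namespace Cfsg.Agent.H27.Yo

open Equiv Cfsg.FusionSystem Cfsg.Agent.H27.Fus Cfsg.Agent.H27.Grp Cfsg.Agent.H27.Bs
open scoped commutatorElement

universe u

theorem exists_functional {p : ℕ} [hp : Fact p.Prime] {V : Type*} [AddCommGroup V] [Module (ZMod p) V] {v : V}
    (hv : v ≠ 0) : ∃ φ : V →ₗ[ZMod p] ZMod p, φ v ≠ 0 := by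
  by_contra h
  push Not at h
  exact hv ((Module.forall_dual_apply_eq_zero_iff (ZMod p) v).1 h)

theorem exists_hom_sep {p : ℕ} [hp : Fact p.Prime] {Q : Type*} [CommGroup Q] (h : ∀ x : Q, x ^ p = 1) {x₀ : Q}
    (hx₀ : x₀ ≠ 1) : ∃ l : Q →* Multiplicative (ZMod p), l x₀ ≠ 1 := by
  letI : Module (ZMod p) (Additive Q) := AddCommGroup.zmodModule (n := p) (fun a => congrArg Additive.ofMul (h a.toMul))
  have hne : Additive.ofMul x₀ ≠ 0 := fun h => hx₀ (congrArg Additive.toMul h)
  obtain ⟨φ, hφ⟩ := exists_functional (p := p) hne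
  exact ⟨AddMonoidHom.toMultiplicativeRight φ.toAddMonoidHom, fun h => hφ (congrArg Multiplicative.toAdd h)⟩

section
variable {G : Type u} [Group G] {p : ℕ} [hp : Fact p.Prime]

/-- a character of order `p` separating a point from a subgroup containing the Frattini subgroup -/
theorem exists_char_sep (K : Subgroup G) (hc : commutator G ≤ K) (hpw : ∀ x : G, x ^ p ∈ K) {x₀ : G} (hx₀ : x₀ ∉ K) :
    ∃ l : G →* Multiplicative (ZMod p), (∀ k ∈ K, l k = 1) ∧ l x₀ ≠ 1 := by
  haveI hKn : K.Normal := by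
    refine ⟨fun k hk g => ?_⟩
    have h1 : ⁅g, k⁆ ∈ K := hc (Subgroup.commutator_mem_commutator (Subgroup.mem_top _) (Subgroup.mem_top _))
    have h2 := K.mul_mem h1 hk
    rwa [commutatorElement_def, inv_mul_cancel_right] at h2
  letI hcg : CommGroup (G ⧸ K) := { (inferInstance : Group (G ⧸ K)) with
    mul_comm := by
      intro a b
      obtain ⟨x, rfl⟩ := QuotientGroup.mk_surjective a
      obtain ⟨y, rfl⟩ := QuotientGroup.mk_surjective b
      apply QuotientGroup.eq.2
      have h1 : ⁅y⁻¹, x⁻¹⁆ ∈ K := hc (Subgroup.commutator_mem_commutator (Subgroup.mem_top _) (Subgroup.mem_top _))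
      have h2 : (x * y)⁻¹ * (y * x) = ⁅y⁻¹, x⁻¹⁆ := by rw [commutatorElement_def]; group
      rw [h2]; exact h1 }
  obtain ⟨l, hl⟩ := exists_hom_sep (p := p) (Q := G ⧸ K) (by
    intro a
    obtain ⟨x, rfl⟩ := QuotientGroup.mk_surjective a
    exact (QuotientGroup.eq_one_iff (N := K) (x ^ p)).2 (hpw x)) (x₀ := ((x₀ : G) : G ⧸ K)) (fun h => hx₀
      ((QuotientGroup.eq_one_iff x₀).1 h))
  refine ⟨l.comp (QuotientGroup.mk' K), fun k hk => ?_, hl⟩
  have h4 : (QuotientGroup.mk' K) k = 1 := (QuotientGroup.eq_one_iff k).2 hk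
  rw [MonoidHom.comp_apply, h4]
  exact map_one l

end

section
variable {Ω : Type u} [Group Ω] {S : Subgroup Ω} {F : FusionSystem S} {P Q R : Subgroup Ω} {f g : Ω → Ω}
  {p : ℕ} [hp : Fact p.Prime]

theorem nrm_self : FusionSystem.normalizerIn S S = S := le_antisymm nrm_le (le_nrm le_rfl)

theorem map_norm_of_iso {N : FusionSystem (FusionSystem.normalizerIn S S)} (hN : F.IsNormalizerSystem S N)
    (hf : Iso F S S f) : Map N S f := by
  have h5 : hf.map.choose ∈ N.Hom S := by
    rw [hN S]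
    have h6 := hf.map.choose_spec
    refine ⟨h6.1, nrm_self.ge, fun x => ?_, ?_⟩
    · rw [nrm_self]; exact (F.le_of_mem h6.1).2 x
    · have hss : S ⊔ S = S := sup_idem S
      have h7 : Map F (S ⊔ S) f := by rw [hss]; exact hf.map
      obtain ⟨ψ, hψ, hψf⟩ := h7
      refine ⟨ψ, hψ, fun x => ?_, ?_⟩
      · rw [h6.2 x]; exact hψf _
      · rw [im_eq_map (fun x => hψf x) le_sup_left]
        exact hf.im_eq
  exact (map_tot h5).congr fun x hx => by
    have := hf.map.choose_spec.2 ⟨x, hx⟩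
    rw [← this]; exact tot_apply _ ⟨x, hx⟩

theorem map_of_norm {N : FusionSystem (FusionSystem.normalizerIn S S)} (hN : F.IsNormalizerSystem S N)
    (hf : Map N P f) : Map F P f := by
  have h3 : ∀ P, N.Hom P ⊆ F.Hom P := fun P φ hφ => by
    rw [hN P] at hφ; exact hφ.1
  exact map_of_le (h3 P) hf

theorem saturated_castFS {T T' : Subgroup Ω} (h : T = T') {E : FusionSystem T} (hE : E.IsSaturated p) :
    (castFS h E).IsSaturated p := by
  subst h; exact hE

theorem foc_castFS {T T' : Subgroup Ω} (h : T = T') (E : FusionSystem T) :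
    (castFS h E).focalSubgroup = E.focalSubgroup := by
  subst h; rfl

theorem yoshida' [Finite S] (hS : IsPGroup p S) (hF : F.IsSaturated p) {N : FusionSystem (FusionSystem.normalizerIn S S)}
    (hN : F.IsNormalizerSystem S N) (hNs : N.IsSaturated p) (hne : N.focalSubgroup ≠ F.focalSubgroup) :
    ∃ (W : Sylow p (Perm (Fin (p ^ 2)))) (f : ↥S →* ↥(W : Subgroup (Perm (Fin (p ^ 2))))), Function.Surjective f := by
  have hH := saturated_castFS (nrm_self (S := S)) hNs
  have hHF : ∀ P f, Map (castFS (nrm_self (S := S)) N) P f → Map F P f := fun P f hf =>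
    map_of_norm hN ((map_castFS _).1 hf)
  have hnle : ¬ F.focalSubgroup ≤ (frattini ↥S).map S.subtype ⊔ (castFS (nrm_self (S := S)) N).focalSubgroup := by
    intro h
    have h1 := tate hS hF hH hHF h
    apply hne
    rw [← foc_castFS (nrm_self (S := S)) N, foc_eq_hyp hS hF, foc_eq_hyp hS hH, h1]
  obtain ⟨x₀, hx₀, hx₀'⟩ := Set.not_subset.1 hnle
  have hx₀S : x₀ ∈ S := foc_le hx₀
  have hNS : N.focalSubgroup ≤ S := foc_le.trans nrm_le
  let K : Subgroup ↥S := frattini ↥S ⊔ N.focalSubgroup.subgroupOf S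
  have hK : (⟨x₀, hx₀S⟩ : ↥S) ∉ K := by
    intro h
    apply hx₀'
    rw [foc_castFS]
    have h2 : K.map S.subtype = (frattini ↥S).map S.subtype ⊔ N.focalSubgroup := by
      rw [Subgroup.map_sup, Subgroup.subgroupOf_map_subtype, inf_eq_left.2 hNS]
    rw [SetLike.mem_coe, ← h2]
    exact ⟨_, h, rfl⟩
  obtain ⟨l, hl1, hl2⟩ := exists_char_sep (p := p) K ((H2.PGroup.commutator_le_frattini hS).trans le_sup_left)
    (fun x => (le_sup_left : _ ≤ K) (H2.PGroup.pow_mem_frattini hS x)) hK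
  refine yoshida hS hF (A := Multiplicative (ZMod p)) (by simp) l (fun f hf a b hab => ?_) hx₀ hl2
  have h3 := mem_foc (map_norm_of_iso hN hf) a.2
  have h4 : a⁻¹ * b ∈ K := by
    apply (le_sup_right : N.focalSubgroup.subgroupOf S ≤ K)
    show ((a⁻¹ * b : ↥S) : Ω) ∈ N.focalSubgroup
    rw [Subgroup.coe_mul, hab]
    exact h3
  have h5 := hl1 _ h4
  rw [map_mul, map_inv, inv_mul_eq_one] at h5
  exact h5.symm

end

end Cfsg.Agent.H27.Yo
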