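import Cfsg.Agent.H8_Act5

/-!
Bulk (bit parallel) coset enumeration with switching networks: the letters are networks in one of two labellings
(letter `13` = change from labelling 1 to labelling 2, letter `14` = back).
-/

set_option autoImplicit false

namespace Cfsg.Agent.H28.BK

open Cfsg.Agent.H8.CE (N N_eq ev ev_nil ev_cons ev_append)
open Cfsg.Agent.H8.Net

/-- concatenation of networks: first `a`, then `b` on bit vectors -/
noncomputable def cat (a b : Nt) : Nt := Nt.rec (motive := fun _ => Nt) b (fun s m _ ih => .st s m ih) a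

theorem cat_pos : ∀ (a b : Nt) (i : ℕ), (cat a b).pos i = a.pos (b.pos i)
  | .nil, b, i => rfl
  | .st s m t, b, i => by
    show stpos s m ((cat t b).pos i) = stpos s m (t.pos (b.pos i))
    rw [cat_pos t b i]

/-- the labelling of a letter -/
noncomputable def sd (S y : ℕ) : Bool := Nat.beq (Nat.land (Nat.shiftRight S y) (nat_lit 1)) (nat_lit 1)

/-- conversion of masks between labellings -/
noncomputable def cv (L : List Nt) (a b : Bool) (v : ℕ) : ℕ :=
  Bool.rec (motive := fun _ => ℕ) (Bool.rec (motive := fun _ => ℕ) v ((net L 14).ap v) b)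
    (Bool.rec (motive := fun _ => ℕ) ((net L 13).ap v) v b) a

/-- entry of the state -/
noncomputable def getM (M : List ℕ) (y : ℕ) : ℕ :=
  List.rec (motive := fun _ => ℕ → ℕ) (fun _ => nat_lit 0)
    (fun a _ ih y => Nat.rec (motive := fun _ => ℕ) a (fun y' _ => ih y') y) M y

theorem getM_zero (a : ℕ) (M : List ℕ) : getM (a :: M) 0 = a := rfl
theorem getM_succ (a : ℕ) (M : List ℕ) (y : ℕ) : getM (a :: M) (y + 1) = getM M y := rfl
theorem getM_nil (y : ℕ) : getM [] y = 0 := rfl

/-- update of the state -/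
noncomputable def updK (M : List ℕ) (y A : ℕ) (k : List ℕ → Bool) : Bool :=
  List.rec (motive := fun _ => ℕ → (List ℕ → Bool) → Bool) (fun _ k => k [])
    (fun a M' ih y k => Nat.rec (motive := fun _ => Bool) (k (A :: M')) (fun y' _ => ih y' (fun M'' => k (a :: M''))) y)
    M y k

theorem updK_eq : ∀ (M : List ℕ) (y A : ℕ) (k : List ℕ → Bool), updK M y A k = k (M.set y A)
  | [], y, A, k => rfl
  | a :: M, 0, A, k => rfl
  | a :: M, y + 1, A, k => by
    show updK M y A (fun M'' => k (a :: M'')) = k (a :: M.set y A)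
    rw [updK_eq M y A]

theorem getM_set : ∀ (M : List ℕ) (y A z : ℕ), y < M.length → getM (M.set y A) z = if z = y then A else getM M z
  | [], y, A, z, h => by simp at h
  | a :: M, 0, A, 0, h => rfl
  | a :: M, 0, A, z + 1, h => by
    show getM M z = _
    rw [if_neg (by omega)]; rfl
  | a :: M, y + 1, A, 0, h => by
    show a = _
    rw [if_neg (by omega)]; rfl
  | a :: M, y + 1, A, z + 1, h => by
    show getM (M.set y A) z = _
    rw [getM_set M y A z (by simpa using h)]
    by_cases hz : z = y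
    · rw [if_pos hz, if_pos (by omega)]
    · rw [if_neg hz, if_neg (by omega)]; rfl

section kern
variable (L : List Nt) (S : ℕ)

/-- the mask of the positions where the whole path is known -/
noncomputable def path (M : List ℕ) : ℕ → List ℕ → ℕ
  | y0, [] => getM M y0
  | y0, y1 :: u => Nat.land (getM M y0) ((net L y0).ap (cv L (sd S y1) (sd S y0) (path M y1 u)))

noncomputable def pathK (M : List ℕ) (u : List ℕ) (y0 : ℕ) (k : ℕ → Bool) : Bool :=
  List.rec (motive := fun _ => ℕ → (ℕ → Bool) → Bool) (fun y0 k => N (getM M y0) k)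
    (fun y1 _ ih y0 k => ih y1 (fun A => N (cv L (sd S y1) (sd S y0) A) (fun A => N ((net L y0).ap A)
      (fun A => N (Nat.land (getM M y0) A) k)))) u y0 k

theorem pathK_eq (M : List ℕ) : ∀ (u : List ℕ) (y0 : ℕ) (k : ℕ → Bool), pathK L S M u y0 k = k (path L S M y0 u)
  | [], y0, k => by
    show N (getM M y0) k = _
    rw [N_eq]; rfl
  | y1 :: u, y0, k => by
    show pathK L S M u y1 (fun A => N (cv L (sd S y1) (sd S y0) A) (fun A => N ((net L y0).ap A)
      (fun A => N (Nat.land (getM M y0) A) k))) = _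
    rw [pathK_eq M u y1, N_eq, N_eq, N_eq]; rfl

/-- operations: define all new positions by a letter, or deduce by a rule -/
inductive Op : Type
  | dfn (y : ℕ) : Op
  | ded (i : ℕ) : Op

/-- rules: letter, first letter, remaining letters -/
abbrev Rule := ℕ × ℕ × List ℕ

noncomputable def getR (rs : List Rule) (i : ℕ) : Rule :=
  List.rec (motive := fun _ => ℕ → Rule) (fun _ => (nat_lit 0, nat_lit 0, []))
    (fun a _ ih y => Nat.rec (motive := fun _ => Rule) a (fun y' _ => ih y') y) rs i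

theorem getR_mem : ∀ (rs : List Rule) (i : ℕ), i < rs.length → getR rs i ∈ rs
  | [], i, h => by simp at h
  | a :: rs, 0, h => by
    show a ∈ a :: rs
    simp
  | a :: rs, i + 1, h => by
    show getR rs i ∈ a :: rs
    exact List.mem_cons_of_mem _ (getR_mem rs i (by simpa using h))

noncomputable def dfnK (y D : ℕ) (M : List ℕ) (k : ℕ → List ℕ → Bool) : Bool :=
  N (cv L false (sd S y) D) fun D2 => N ((net L y).ap D2) fun yD =>
    N (Nat.lor (getM M y) (Nat.xor D2 yD)) fun m => N (cv L (sd S y) false (Nat.lor D2 yD)) fun D' =>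
      updK M y m fun M' => k D' M'

noncomputable def dedK (r : Rule) (D : ℕ) (M : List ℕ) (k : ℕ → List ℕ → Bool) : Bool :=
  pathK L S M r.2.2 r.2.1 fun A => N (cv L (sd S r.2.1) (sd S r.1) A) fun A1 => N ((net L r.1).ap A1) fun A2 =>
    N (Nat.lor (getM M r.1) (Nat.lor A1 A2)) fun m => updK M r.1 m fun M' => k D M'

noncomputable def stepK (rs : List Rule) (o : Op) (D : ℕ) (M : List ℕ) (k : ℕ → List ℕ → Bool) : Bool :=
  Op.rec (motive := fun _ => Bool) (fun y => dfnK L S y D M k) (fun i => dedK L S (getR rs i) D M k) o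

noncomputable def runK (rs : List Rule) (os : List Op) : ℕ → List ℕ → (ℕ → List ℕ → Bool) → Bool :=
  List.rec (motive := fun _ => ℕ → List ℕ → (ℕ → List ℕ → Bool) → Bool) (fun D M k => k D M)
    (fun o _ ih D M k => stepK L S rs o D M (fun D' M' => ih D' M' k)) os

end kern

/-- comparison of lists -/
noncomputable def beqL : List ℕ → List ℕ → Bool :=
  List.rec (motive := fun _ => List ℕ → Bool) (List.rec (motive := fun _ => Bool) true (fun _ _ _ => false))
    (fun a _ ih l => List.rec (motive := fun _ => Bool) false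
      (fun b l' _ => Bool.rec (motive := fun _ => Bool) false (ih l') (Nat.beq a b)) l)

theorem beqL_eq : ∀ (a b : List ℕ), beqL a b = true → a = b
  | [], [], _ => rfl
  | [], _ :: _, h => Bool.noConfusion (h : false = true)
  | _ :: _, [], h => Bool.noConfusion (h : false = true)
  | a :: l, b :: l', h => by
    have h1 : Bool.rec (motive := fun _ => Bool) false (beqL l l') (Nat.beq a b) = true := h
    cases hb : Nat.beq a b
    · rw [hb] at h1; exact absurd h1 (by simp)
    · rw [hb] at h1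
      rw [Nat.eq_of_beq_eq_true hb, beqL_eq l l' h1]

noncomputable def eqSt (D1 : ℕ) (M1 : List ℕ) (D : ℕ) (M : List ℕ) : Bool :=
  Bool.rec (motive := fun _ => Bool) false (beqL M M1) (Nat.beq D D1)

theorem eqSt_eq {D1 : ℕ} {M1 : List ℕ} {D : ℕ} {M : List ℕ} (h : eqSt D1 M1 D M = true) : D = D1 ∧ M = M1 := by
  unfold eqSt at h
  cases hb : Nat.beq D D1
  · rw [hb] at h; exact absurd h (by simp)
  · rw [hb] at h
    exact ⟨Nat.eq_of_beq_eq_true hb, beqL_eq _ _ h⟩

/-! ### Semantics -/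

/-- action of a letter in labelling 1 -/
noncomputable def tl (L : List Nt) (S y v : ℕ) : ℕ :=
  if sd S y = true then (net L 14).pos ((net L y).pos ((net L 13).pos v)) else (net L y).pos v

/-- action of a word -/
noncomputable def tt (L : List Nt) (S : ℕ) : List ℕ → ℕ → ℕ
  | [], v => v
  | y :: w, v => tt L S w (tl L S y v)

/-- label in the other labelling -/
def cl (L : List Nt) (s : Bool) (v : ℕ) : ℕ := if s = true then (net L 13).pos v else v

/-- membership in a mask -/
def mem (L : List Nt) (A : ℕ) (s : Bool) (v : ℕ) : Prop := A.testBit (cl L s v) = true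

/-- hypotheses on the labellings -/
structure Sys (L : List Nt) (n : ℕ) : Prop where
  hs : sysOk L n = true
  h1 : ∀ v, v < n → (net L 14).pos ((net L 13).pos v) = v
  h2 : ∀ v, v < n → (net L 13).pos ((net L 14).pos v) = v

section sem
variable {L : List Nt} {S n : ℕ}

theorem tl_lt (h : Sys L n) {v : ℕ} (hv : v < n) (y : ℕ) : tl L S y v < n := by
  unfold tl
  split_ifs
  · rw [(net_mem h.hs _).2, (net_mem h.hs _).2, (net_mem h.hs _).2]; exact hv
  · rw [(net_mem h.hs _).2]; exact hv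

theorem tt_lt (h : Sys L n) : ∀ (w : List ℕ) {v : ℕ}, v < n → tt L S w v < n
  | [], v, hv => hv
  | y :: w, v, hv => tt_lt h w (tl_lt h hv y)

theorem tt_append (u w : List ℕ) : ∀ v, tt L S (u ++ w) v = tt L S w (tt L S u v) := by
  induction u with
  | nil => intro v; rfl
  | cons y u ih => intro v; exact ih _

theorem mem_cv (h : Sys L n) (a b : Bool) (A : ℕ) {v : ℕ} (hv : v < n) : mem L (cv L a b A) b v ↔ mem L A a v := by
  cases a <;> cases b
  · exact Iff.rfl
  · show ((net L 14).ap A).testBit ((net L 13).pos v) = true ↔ A.testBit v = true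
    rw [Nt.ap_testBit (net_mem h.hs 14).1, h.h1 v hv]
  · show ((net L 13).ap A).testBit v = true ↔ A.testBit ((net L 13).pos v) = true
    rw [Nt.ap_testBit (net_mem h.hs 13).1]
  · exact Iff.rfl

theorem mem_ap (h : Sys L n) (A y : ℕ) {v : ℕ} (hv : v < n) :
    mem L ((net L y).ap A) (sd S y) v ↔ mem L A (sd S y) (tl L S y v) := by
  unfold mem tl cl
  cases hsd : sd S y
  · simp only [Bool.false_eq_true, if_false]
    rw [Nt.ap_testBit (net_mem h.hs y).1]
  · simp only [if_true]
    rw [Nt.ap_testBit (net_mem h.hs y).1, h.h2]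
    rw [(net_mem h.hs _).2, (net_mem h.hs _).2]; exact hv

theorem mem_land (A B : ℕ) (s : Bool) (v : ℕ) : mem L (Nat.land A B) s v ↔ mem L A s v ∧ mem L B s v := by
  show (A &&& B).testBit _ = true ↔ _
  rw [Nat.testBit_and, Bool.and_eq_true]; rfl

theorem mem_lor (A B : ℕ) (s : Bool) (v : ℕ) : mem L (Nat.lor A B) s v ↔ mem L A s v ∨ mem L B s v := by
  show (A ||| B).testBit _ = true ↔ _
  rw [Nat.testBit_or, Bool.or_eq_true]; rfl

theorem mem_xor (A B : ℕ) (s : Bool) (v : ℕ) : mem L (Nat.xor A B) s v ↔ (mem L A s v ∧ ¬ mem L B s v) ∨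
    (¬ mem L A s v ∧ mem L B s v) := by
  show (A ^^^ B).testBit _ = true ↔ _
  unfold mem
  rw [Nat.testBit_xor]
  cases A.testBit (cl L s v) <;> cases B.testBit (cl L s v) <;> simp

/-- the whole path is known -/
def pathOK (L : List Nt) (S : ℕ) (M : List ℕ) : ℕ → List ℕ → ℕ → Prop
  | y0, [], v => mem L (getM M y0) (sd S y0) v
  | y0, y1 :: u, v => mem L (getM M y0) (sd S y0) v ∧ pathOK L S M y1 u (tl L S y0 v)

theorem mem_path (h : Sys L n) (M : List ℕ) : ∀ (u : List ℕ) (y0 v : ℕ), v < n →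
    mem L (path L S M y0 u) (sd S y0) v → pathOK L S M y0 u v
  | [], y0, v, hv, hm => hm
  | y1 :: u, y0, v, hv, hm => by
    have hm' : mem L (Nat.land (getM M y0) ((net L y0).ap (cv L (sd S y1) (sd S y0) (path L S M y1 u)))) (sd S y0) v := hm
    rw [mem_land, mem_ap h _ _ hv, mem_cv h _ _ _ (tl_lt h hv y0)] at hm'
    exact ⟨hm'.1, mem_path h M u y1 _ (tl_lt h hv y0) hm'.2⟩

variable {G : Type*} [Group G]

/-- edges -/
def Edge (L : List Nt) (S : ℕ) (H : Subgroup G) (x : ℕ → G) (f : ℕ → G) (y v : ℕ) : Prop :=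
  f v * x y * (f (tl L S y v))⁻¹ ∈ H

/-- the invariant -/
def Inv (L : List Nt) (S n b0 : ℕ) (H : Subgroup G) (x : ℕ → G) (D : ℕ) (M : List ℕ) : Prop :=
  M.length = 13 ∧ ∃ f : ℕ → G, f b0 = 1 ∧ ∀ y, 1 ≤ y → y < 13 → ∀ v, v < n → mem L (getM M y) (sd S y) v →
    mem L D false v ∧ mem L (getM M y) (sd S y) (tl L S y v) ∧ Edge L S H x f y v

/-- valid rules -/
structure RuleOk (L : List Nt) (S n : ℕ) (x : ℕ → G) (r : Rule) : Prop where
  hy : 1 ≤ r.1 ∧ r.1 < 13
  h0 : 1 ≤ r.2.1 ∧ r.2.1 < 13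
  hu : ∀ y ∈ r.2.2, 1 ≤ y ∧ y < 13
  he : ev x (r.2.1 :: r.2.2) = x r.1
  ht : ∀ v, v < n → tt L S (r.2.1 :: r.2.2) v = tl L S r.1 v

/-- hypotheses on the letters -/
structure Let (L : List Nt) (S n : ℕ) (x : ℕ → G) : Prop where
  sq : ∀ y, 1 ≤ y → y < 13 → x y * x y = 1
  tsq : ∀ y, 1 ≤ y → y < 13 → ∀ v, v < n → tl L S y (tl L S y v) = v

variable {H : Subgroup G} {x : ℕ → G} {b0 : ℕ}

theorem path_sound (h : Sys L n) {f : ℕ → G} {M : List ℕ} {D : ℕ}
    (hf : ∀ y, 1 ≤ y → y < 13 → ∀ v, v < n → mem L (getM M y) (sd S y) v →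
      mem L D false v ∧ mem L (getM M y) (sd S y) (tl L S y v) ∧ Edge L S H x f y v) :
    ∀ (u : List ℕ) (y0 v : ℕ), v < n → (1 ≤ y0 ∧ y0 < 13) → (∀ y ∈ u, 1 ≤ y ∧ y < 13) → pathOK L S M y0 u v →
      mem L D false v ∧ mem L D false (tt L S (y0 :: u) v) ∧ f v * ev x (y0 :: u) * (f (tt L S (y0 :: u) v))⁻¹ ∈ H
  | [], y0, v, hv, hy0, hu, hp => by
    obtain ⟨h1, h2, h3⟩ := hf y0 hy0.1 hy0.2 v hv hp
    obtain ⟨h4, -, -⟩ := hf y0 hy0.1 hy0.2 _ (tl_lt h hv y0) h2
    refine ⟨h1, h4, ?_⟩
    rw [ev_cons, ev_nil, mul_one]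
    exact h3
  | y1 :: u, y0, v, hv, hy0, hu, hp => by
    obtain ⟨hp1, hp2⟩ := hp
    obtain ⟨h1, h2, h3⟩ := hf y0 hy0.1 hy0.2 v hv hp1
    obtain ⟨g1, g2, g3⟩ := path_sound h hf u y1 _ (tl_lt h hv y0) (hu y1 (by simp)) (fun y hy => hu y (by simp [hy])) hp2
    refine ⟨h1, g2, ?_⟩
    have e := H.mul_mem h3 g3
    rw [ev_cons]
    have e2 : f v * x y0 * (f (tl L S y0 v))⁻¹ * (f (tl L S y0 v) * ev x (y1 :: u) *
        (f (tt L S (y1 :: u) (tl L S y0 v)))⁻¹) = f v * (x y0 * ev x (y1 :: u)) *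
        (f (tt L S (y0 :: y1 :: u) v))⁻¹ := by
      show _ = f v * (x y0 * ev x (y1 :: u)) * (f (tt L S (y1 :: u) (tl L S y0 v)))⁻¹
      group
    rw [← e2]; exact e

theorem ded_sound (h : Sys L n) (hl : Let L S n x) {r : Rule} (hr : RuleOk L S n x r) {D : ℕ} {M : List ℕ}
    (hi : Inv L S n b0 H x D M) {k : ℕ → List ℕ → Bool} (hk : dedK L S r D M k = true) :
    ∃ D' M', Inv L S n b0 H x D' M' ∧ k D' M' = true := by
  unfold dedK at hk
  rw [pathK_eq, N_eq, N_eq, N_eq, updK_eq] at hk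
  refine ⟨_, _, ?_, hk⟩
  obtain ⟨hlen, f, hf0, hf⟩ := hi
  have hylen : r.1 < M.length := by rw [hlen]; exact hr.hy.2
  refine ⟨by rw [List.length_set]; exact hlen, f, hf0, ?_⟩
  -- facts for the new edges
  have key : ∀ v, v < n → mem L (cv L (sd S r.2.1) (sd S r.1) (path L S M r.2.1 r.2.2)) (sd S r.1) v →
      mem L D false v ∧ mem L D false (tl L S r.1 v) ∧ Edge L S H x f r.1 v ∧ Edge L S H x f r.1 (tl L S r.1 v) := by
    intro v hv hm
    rw [mem_cv h _ _ _ hv] at hm
    obtain ⟨h1, h2, h3⟩ := path_sound h hf r.2.2 r.2.1 v hv hr.h0 hr.hu (mem_path h M _ _ v hv hm)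
    rw [hr.ht v hv] at h2 h3
    rw [hr.he] at h3
    refine ⟨h1, h2, h3, ?_⟩
    unfold Edge
    rw [hl.tsq r.1 hr.hy.1 hr.hy.2 v hv]
    have h4 := H.inv_mem h3
    have h5 : (x r.1)⁻¹ = x r.1 := inv_eq_of_mul_eq_one_left (hl.sq r.1 hr.hy.1 hr.hy.2)
    rw [mul_inv_rev, mul_inv_rev, inv_inv, h5, ← mul_assoc] at h4
    exact h4
  intro y hy1 hy2 v hv hm
  rw [getM_set _ _ _ _ hylen] at hm ⊢
  by_cases hyr : y = r.1
  · subst hyr
    rw [if_pos rfl] at hm ⊢
    rw [mem_lor, mem_lor, mem_ap h _ _ hv] at hm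
    rw [mem_lor, mem_lor, mem_ap h _ _ (tl_lt h hv r.1), hl.tsq r.1 hr.hy.1 hr.hy.2 v hv]
    rcases hm with hm | hm | hm
    · obtain ⟨h1, h2, h3⟩ := hf r.1 hy1 hy2 v hv hm
      exact ⟨h1, Or.inl h2, h3⟩
    · obtain ⟨h1, h2, h3, h4⟩ := key v hv hm
      exact ⟨h1, Or.inr (Or.inr hm), h3⟩
    · obtain ⟨h1, h2, h3, h4⟩ := key _ (tl_lt h hv r.1) hm
      rw [hl.tsq r.1 hr.hy.1 hr.hy.2 v hv] at h2 h4
      exact ⟨h2, Or.inr (Or.inl hm), h4⟩
  · rw [if_neg hyr] at hm ⊢
    exact hf y hy1 hy2 v hv hm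

theorem dfn_sound (h : Sys L n) (hl : Let L S n x) {y0 : ℕ} (hy0 : 1 ≤ y0 ∧ y0 < 13) {D : ℕ} {M : List ℕ}
    (hD : mem L D false b0) (hi : Inv L S n b0 H x D M) {k : ℕ → List ℕ → Bool} (hk : dfnK L S y0 D M k = true) (hb0 : b0 < n) :
    ∃ D' M', Inv L S n b0 H x D' M' ∧ mem L D' false b0 ∧ k D' M' = true := by
  unfold dfnK at hk
  rw [N_eq, N_eq, N_eq, N_eq, updK_eq] at hk
  refine ⟨_, _, ?_, ?_, hk⟩
  · obtain ⟨hlen, f, hf0, hf⟩ := hi
    have hylen : y0 < M.length := by rw [hlen]; exact hy0.2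
    refine ⟨by rw [List.length_set]; exact hlen, ?_⟩
    classical
    refine ⟨fun v => if mem L D false v then f v else f (tl L S y0 v) * x y0, by
      simp only [if_pos hD]; exact hf0, ?_⟩
    have hD' : ∀ v, v < n → (mem L (cv L (sd S y0) false (Nat.lor (cv L false (sd S y0) D)
        ((net L y0).ap (cv L false (sd S y0) D)))) false v ↔ (mem L D false v ∨ mem L D false (tl L S y0 v))) := by
      intro v hv
      rw [mem_cv h _ _ _ hv, mem_lor, mem_cv h _ _ _ hv, mem_ap h _ _ hv, mem_cv h _ _ _ (tl_lt h hv y0)]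
    intro y hy1 hy2 v hv hm
    rw [getM_set _ _ _ _ hylen] at hm ⊢
    rw [hD' v hv]
    -- old edges
    have old : mem L (getM M y) (sd S y) v → mem L D false v ∧ mem L (getM M y) (sd S y) (tl L S y v) ∧
        Edge L S H x (fun v => if mem L D false v then f v else f (tl L S y0 v) * x y0) y v := by
      intro hm
      obtain ⟨h1, h2, h3⟩ := hf y hy1 hy2 v hv hm
      obtain ⟨h4, -, -⟩ := hf y hy1 hy2 _ (tl_lt h hv y) h2
      refine ⟨h1, h2, ?_⟩
      unfold Edge at h3 ⊢
      simp only [if_pos h1, if_pos h4]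
      exact h3
    by_cases hyr : y = y0
    · subst hyr
      rw [if_pos rfl] at hm ⊢
      rw [mem_lor] at hm
      rw [mem_lor]
      have hx : mem L (Nat.xor (cv L false (sd S y) D) ((net L y).ap (cv L false (sd S y) D))) (sd S y) v ↔
          (mem L D false v ∧ ¬ mem L D false (tl L S y v)) ∨ (¬ mem L D false v ∧ mem L D false (tl L S y v)) := by
        rw [mem_xor, mem_cv h _ _ _ hv, mem_ap h _ _ hv, mem_cv h _ _ _ (tl_lt h hv y)]
      have hx2 : mem L (Nat.xor (cv L false (sd S y) D) ((net L y).ap (cv L false (sd S y) D))) (sd S y) (tl L S y v) ↔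
          (mem L D false (tl L S y v) ∧ ¬ mem L D false v) ∨ (¬ mem L D false (tl L S y v) ∧ mem L D false v) := by
        rw [mem_xor, mem_cv h _ _ _ (tl_lt h hv y), mem_ap h _ _ (tl_lt h hv y), mem_cv h _ _ _ (tl_lt h (tl_lt h hv y) y),
          hl.tsq y hy1 hy2 v hv]
      rcases hm with hm | hm
      · obtain ⟨h1, h2, h3⟩ := old hm
        exact ⟨Or.inl h1, Or.inl h2, h3⟩
      · rw [hx] at hm
        rw [hx2]
        have hsq := hl.sq y hy1 hy2
        rcases hm with ⟨h1, h2⟩ | ⟨h1, h2⟩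
        · refine ⟨Or.inl h1, Or.inr (Or.inr ⟨h2, h1⟩), ?_⟩
          unfold Edge
          simp only [if_pos h1, if_neg h2]
          rw [hl.tsq y hy1 hy2 v hv, mul_inv_cancel]
          exact H.one_mem
        · refine ⟨Or.inr h2, Or.inr (Or.inl ⟨h2, h1⟩), ?_⟩
          unfold Edge
          simp only [if_neg h1, if_pos h2]
          rw [mul_assoc (f _) (x y) (x y), hsq, mul_one, mul_inv_cancel]
          exact H.one_mem
    · rw [if_neg hyr] at hm ⊢
      obtain ⟨h1, h2, h3⟩ := old hm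
      exact ⟨Or.inl h1, h2, h3⟩
  · rw [mem_cv h _ _ _ hb0, mem_lor, mem_cv h _ _ _ hb0]
    exact Or.inl hD

/-- valid operations -/
def opOk (m : ℕ) : Op → Bool
  | .dfn y => Nat.ble 1 y && Nat.blt y 13
  | .ded i => Nat.blt i m

theorem run_sound (h : Sys L n) (hl : Let L S n x) {rs : List Rule} (hr : ∀ r ∈ rs, RuleOk L S n x r) (hb0 : b0 < n) :
    ∀ (os : List Op), (os.all (opOk rs.length)) = true → ∀ (D : ℕ) (M : List ℕ) (k : ℕ → List ℕ → Bool),
      Inv L S n b0 H x D M → mem L D false b0 → runK L S rs os D M k = true →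
      ∃ D' M', Inv L S n b0 H x D' M' ∧ mem L D' false b0 ∧ k D' M' = true
  | [], _, D, M, k, hi, hD, hk => ⟨D, M, hi, hD, hk⟩
  | o :: os, ho, D, M, k, hi, hD, hk => by
    rw [List.all_cons, Bool.and_eq_true] at ho
    have hk' : stepK L S rs o D M (fun D' M' => runK L S rs os D' M' k) = true := hk
    cases o with
    | dfn y =>
      have hy : 1 ≤ y ∧ y < 13 := by
        have := ho.1
        simp only [opOk, Bool.and_eq_true, Nat.ble_eq, Nat.blt_eq] at this
        exact this
      have hk2 : dfnK L S y D M (fun D' M' => runK L S rs os D' M' k) = true := hk'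
      obtain ⟨D', M', h1, h2, h3⟩ := dfn_sound h hl hy hD hi hk2 hb0
      exact run_sound h hl hr hb0 os ho.2 D' M' k h1 h2 h3
    | ded i =>
      have hi' : i < rs.length := by
        have := ho.1
        simp only [opOk, Nat.blt_eq] at this
        exact this
      have hk2 : dedK L S (getR rs i) D M (fun D' M' => runK L S rs os D' M' k) = true := hk'
      have hDk : ∃ D' M', Inv L S n b0 H x D' M' ∧ mem L D' false b0 ∧ runK L S rs os D' M' k = true := by
        unfold dedK at hk2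
        rw [pathK_eq, N_eq, N_eq, N_eq, updK_eq] at hk2
        have h3 := ded_sound (b0 := b0) (H := H) h hl (hr _ (getR_mem rs i hi')) hi
          (k := fun D' M' => beqL M' (M.set (getR rs i).1 ((getM M (getR rs i).1).lor
            ((cv L (sd S (getR rs i).2.1) (sd S (getR rs i).1) (path L S M (getR rs i).2.1 (getR rs i).2.2)).lor
              ((net L (getR rs i).1).ap (cv L (sd S (getR rs i).2.1) (sd S (getR rs i).1)
                (path L S M (getR rs i).2.1 (getR rs i).2.2)))))) && Nat.beq D' D) (by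
            unfold dedK
            rw [pathK_eq, N_eq, N_eq, N_eq, updK_eq]
            rw [Bool.and_eq_true]
            refine ⟨?_, Nat.beq_refl _⟩
            generalize (M.set (getR rs i).1 _) = l
            induction l with
            | nil => rfl
            | cons a l ih =>
              show Bool.rec (motive := fun _ => Bool) false (beqL l l) (Nat.beq a a) = true
              rw [Nat.beq_refl]; exact ih)
        obtain ⟨D', M', h4, h5⟩ := h3
        rw [Bool.and_eq_true] at h5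
        have e1 := beqL_eq _ _ h5.1
        have e2 := Nat.eq_of_beq_eq_true h5.2
        subst e1 e2
        exact ⟨_, _, h4, hD, hk2⟩
      obtain ⟨D', M', h1, h2, h3⟩ := hDk
      exact run_sound h hl hr hb0 os ho.2 D' M' k h1 h2 h3

/-- the final step: all the edges are known -/
theorem cover (h : Sys L n) (hl : Let L S n x) (hb0 : b0 < n) {D : ℕ} {M : List ℕ} (hi : Inv L S n b0 H x D M)
    (hM : ∀ y, 1 ≤ y → y < 13 → getM M y = ones n) (hgen : Subgroup.closure (x '' {y | 1 ≤ y ∧ y < 13}) = ⊤) :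
    H.index ≠ 0 ∧ H.index ≤ n := by
  obtain ⟨hlen, f, hf0, hf⟩ := hi
  have hE : ∀ y, 1 ≤ y → y < 13 → ∀ v, v < n → Edge L S H x f y v := by
    intro y h1 h2 v hv
    refine (hf y h1 h2 v hv ?_).2.2
    rw [hM y h1 h2]
    unfold mem
    rw [ones_testBit]
    simp only [decide_eq_true_eq]
    unfold cl
    split_ifs
    · rw [(net_mem h.hs _).2]; exact hv
    · exact hv
  have hcov : ∀ g : G, ∃ v, v < n ∧ g * (f v)⁻¹ ∈ H := by
    intro g
    have hg : g ∈ Subgroup.closure (x '' {y | 1 ≤ y ∧ y < 13}) := by rw [hgen]; trivial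
    induction hg using Subgroup.closure_induction_right with
    | one => exact ⟨b0, hb0, by rw [hf0]; simp⟩
    | mul_right g hg y hy ih =>
      obtain ⟨v, hv, hgv⟩ := ih
      obtain ⟨z, ⟨hz1, hz2⟩, rfl⟩ := hy
      refine ⟨tl L S z v, tl_lt h hv z, ?_⟩
      have := H.mul_mem hgv (hE z hz1 hz2 v hv)
      convert this using 1
      group
    | mul_inv_cancel g hg y hy ih =>
      obtain ⟨v, hv, hgv⟩ := ih
      obtain ⟨z, ⟨hz1, hz2⟩, rfl⟩ := hy
      refine ⟨tl L S z v, tl_lt h hv z, ?_⟩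
      have h5 : (x z)⁻¹ = x z := inv_eq_of_mul_eq_one_left (hl.sq z hz1 hz2)
      rw [h5]
      have := H.mul_mem hgv (hE z hz1 hz2 v hv)
      convert this using 1
      group
  have hsur : Function.Surjective (fun i : Fin n => (QuotientGroup.mk ((f i)⁻¹) : G ⧸ H)) := by
    intro q
    induction q using QuotientGroup.induction_on with
    | H g =>
      obtain ⟨v, hv, hgv⟩ := hcov g⁻¹
      refine ⟨⟨v, hv⟩, ?_⟩
      rw [QuotientGroup.eq]
      show ((f v)⁻¹)⁻¹ * g ∈ H
      have := H.inv_mem hgv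
      simpa using this
  haveI : Finite (G ⧸ H) := Finite.of_surjective _ hsur
  refine ⟨?_, ?_⟩
  · rw [Subgroup.index]
    haveI : Nonempty (G ⧸ H) := ⟨QuotientGroup.mk 1⟩
    exact Nat.card_pos.ne'
  · rw [Subgroup.index]
    have := Nat.card_le_card_of_surjective _ hsur
    simpa using this

/-- initial check -/
noncomputable def initB (L : List Nt) (S b0 : ℕ) (M : List ℕ) : List ℕ → Bool :=
  List.rec (motive := fun _ => Bool) true (fun y _ ih =>
    Bool.rec (motive := fun _ => Bool) false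
      (Bool.rec (motive := fun _ => Bool) false ih (Nat.beq ((net L y).ap (getM M y)) (getM M y)))
      (Nat.beq (getM M y) (cv L false (sd S y) (Nat.pow (nat_lit 2) b0))))

theorem initB_sound {M : List ℕ} : ∀ {l : List ℕ}, initB L S b0 M l = true → ∀ y ∈ l,
    getM M y = cv L false (sd S y) (2 ^ b0) ∧ (net L y).ap (getM M y) = getM M y
  | [], _, y, hy => by simp at hy
  | z :: l, h, y, hy => by
    have h1 : Bool.rec (motive := fun _ => Bool) false
      (Bool.rec (motive := fun _ => Bool) false (initB L S b0 M l) (Nat.beq ((net L z).ap (getM M z)) (getM M z)))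
      (Nat.beq (getM M z) (cv L false (sd S z) (Nat.pow (nat_lit 2) b0))) = true := h
    cases hb : Nat.beq (getM M z) (cv L false (sd S z) (Nat.pow (nat_lit 2) b0))
    · rw [hb] at h1; exact absurd h1 (by simp)
    rw [hb] at h1
    cases hc : Nat.beq ((net L z).ap (getM M z)) (getM M z)
    · rw [hc] at h1; exact absurd h1 (by simp)
    rw [hc] at h1
    rw [List.mem_cons] at hy
    rcases hy with rfl | hy
    · exact ⟨Nat.eq_of_beq_eq_true hb, Nat.eq_of_beq_eq_true hc⟩
    · exact initB_sound h1 y hy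

theorem init_inv (h : Sys L n) (hb0 : b0 < n) {M : List ℕ} (hlen : M.length = 13) {l : List ℕ}
    (hi : initB L S b0 M l = true) (h0 : ∀ y, 1 ≤ y → y < 13 → y ∉ l → getM M y = 0) (hx : ∀ y ∈ l, x y ∈ H) :
    Inv L S n b0 H x (2 ^ b0) M ∧ mem L (2 ^ b0) false b0 := by
  have hself : mem L (2 ^ b0) false b0 := by
    show (2 ^ b0).testBit b0 = true
    rw [Nat.testBit_two_pow]; simp
  refine ⟨⟨hlen, fun _ => 1, rfl, ?_⟩, hself⟩
  intro y h1 h2 v hv hm
  by_cases hy : y ∈ l
  · obtain ⟨e1, e2⟩ := initB_sound hi y hy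
    have hm0 := hm
    rw [e1, mem_cv h _ _ _ hv] at hm
    have hvb : v = b0 := by
      have : (2 ^ b0).testBit v = true := hm
      rw [Nat.testBit_two_pow] at this
      have := of_decide_eq_true this
      exact this.symm
    subst hvb
    have hm1 : mem L ((net L y).ap (getM M y)) (sd S y) v := by rw [e2]; exact hm0
    rw [mem_ap h _ _ hv] at hm1
    refine ⟨hself, hm1, ?_⟩
    unfold Edge
    simpa using hx y hy
  · rw [h0 y h1 h2 hy] at hm
    exact absurd hm (by unfold mem; simp)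

end sem

end Cfsg.Agent.H28.BK
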