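import Cfsg.Agent.H28_BK
import Cfsg.Agent.H8_Cox

/-!
Bulk enumeration: words, compressed words, permutations.
-/

set_option autoImplicit false

namespace Cfsg.Agent.H28.BK

open Cfsg.Agent.H8.CE (N N_eq ev ev_nil ev_cons ev_append ev_rot)
open Cfsg.Agent.H8.Net Cfsg.Agent.H8.Act Cfsg.Agent.H8.Act5 Cfsg.Agent.H8.Cox

section
variable {L : List Nt} {S n : ℕ}

theorem cl_inj (h : Sys L n) (s : Bool) {v w : ℕ} (hv : v < n) (hw : w < n) (e : cl L s v = cl L s w) : v = w := by
  unfold cl at e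
  split_ifs at e
  · rw [← h.h1 v hv, e, h.h1 w hw]
  · exact e

/-- words on one side -/
theorem tt_raw (h : Sys L n) {s : Bool} : ∀ (u : List ℕ), (∀ y ∈ u, sd S y = s) → ∀ v, v < n →
    cl L s (tt L S u v) = tr L u (cl L s v)
  | [], _, v, _ => rfl
  | y :: u, hu, v, hv => by
    show cl L s (tt L S u (tl L S y v)) = tr L u ((net L y).pos (cl L s v))
    rw [tt_raw h u (fun z hz => hu z (by simp [hz])) _ (tl_lt h hv y)]
    congr 1
    have hy := hu y (by simp)
    unfold tl cl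
    cases s
    · rw [hy]; simp
    · rw [hy]
      simp only [if_true]
      rw [h.h2]
      rw [(net_mem h.hs _).2, (net_mem h.hs _).2]; exact hv

theorem tt_of_raw (h : Sys L n) {s : Bool} {u w : List ℕ} (hu : ∀ y ∈ u, sd S y = s) (hw : ∀ y ∈ w, sd S y = s)
    (he : ∀ i, i < n → tr L u i = tr L w i) : ∀ v, v < n → tt L S u v = tt L S w v := by
  intro v hv
  apply cl_inj h s (tt_lt h u hv) (tt_lt h w hv)
  rw [tt_raw h u hu v hv, tt_raw h w hw v hv]
  apply he
  unfold cl
  split_ifs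
  · rw [(net_mem h.hs _).2]; exact hv
  · exact hv

/-- compressed words -/
noncomputable def comp (S : ℕ) : Bool → List ℕ → List ℕ
  | cur, [] => if cur = true then [14] else []
  | cur, y :: w => if sd S y = cur then y :: comp S cur w else (if cur = true then 14 else 13) :: y :: comp S (sd S y) w

theorem tr_comp (h : Sys L n) : ∀ (w : List ℕ) (cur : Bool) (v : ℕ), v < n →
    tr L (comp S cur w) (cl L cur v) = tt L S w v
  | [], cur, v, hv => by
    unfold comp cl
    cases cur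
    · rfl
    · simp only [if_true]
      exact h.h1 v hv
  | y :: w, cur, v, hv => by
    have ih := tr_comp h w (sd S y) (tl L S y v) (tl_lt h hv y)
    have key : (net L y).pos (cl L (sd S y) v) = cl L (sd S y) (tl L S y v) := by
      unfold tl cl
      split_ifs
      · rw [h.h2]
        rw [(net_mem h.hs _).2, (net_mem h.hs _).2]; exact hv
      · rfl
    have e1 : tr L (y :: comp S (sd S y) w) (cl L (sd S y) v) = tt L S w (tl L S y v) := by
      show tr L (comp S (sd S y) w) ((net L y).pos (cl L (sd S y) v)) = _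
      rw [key, ih]
    unfold comp
    by_cases hc : sd S y = cur
    · rw [if_pos hc]
      rw [hc] at e1
      exact e1
    · rw [if_neg hc]
      cases cur
      · have hs : sd S y = true := by simpa using hc
        simp only [Bool.false_eq_true, if_false]
        rw [hs] at e1 ⊢
        exact e1
      · have hs : sd S y = false := by simpa using hc
        simp only [if_true]
        rw [hs] at e1 ⊢
        show tr L (y :: comp S false w) ((net L 14).pos (cl L true v)) = _
        have e2 : (net L 14).pos (cl L true v) = v := h.h1 v hv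
        rw [e2]
        exact e1

theorem tt_of_comp (h : Sys L n) {u w : List ℕ} (he : ∀ i, i < n → tr L (comp S false u) i = tr L (comp S false w) i) :
    ∀ v, v < n → tt L S u v = tt L S w v := by
  intro v hv
  have h1 := tr_comp (S := S) h u false v hv
  have h2 := tr_comp (S := S) h w false v hv
  have h3 : cl L false v = v := rfl
  rw [h3] at h1 h2
  rw [← h1, ← h2, he v hv]

theorem tr_append (u w : List ℕ) : ∀ v, tr L (u ++ w) v = tr L w (tr L u v) := by
  induction u with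
  | nil => intro v; rfl
  | cons y u ih => intro v; exact ih _

/-- a network for a word -/
theorem tt_pow (h : Sys L n) {z : ℕ} {w : List ℕ} (hz : ∀ v, v < n → (net L z).pos v = tt L S w v) :
    ∀ (m : ℕ) (v : ℕ), v < n → tt L S (powW w m) v = tr L (List.replicate m z) v
  | 0, v, _ => rfl
  | m + 1, v, hv => by
    rw [powW, tt_append, tt_pow h hz m _ (tt_lt h w hv), List.replicate_succ]
    show _ = tr L (List.replicate m z) ((net L z).pos v)
    rw [hz v hv]

theorem cox2 (h : Sys L n) {i j : ℕ} (hi : ∀ v, v < n → tt L S [i, i] v = v) (hj : ∀ v, v < n → tt L S [j, j] v = v)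
    (hc : ∀ v, v < n → tt L S [i, j] v = tt L S [j, i] v) : ∀ v, v < n → tt L S (coxW i j 2) v = v := by
  intro v hv
  have e : coxW i j 2 = [i, j] ++ [i, j] := rfl
  rw [e, tt_append, hc v hv]
  show tt L S [i, j] (tl L S i (tl L S j v)) = v
  show tl L S j (tl L S i (tl L S i (tl L S j v))) = v
  have h1 : tl L S i (tl L S i (tl L S j v)) = tl L S j v := hi _ (tl_lt h hv j)
  rw [h1]
  exact hj v hv

theorem cox3 (h : Sys L n) {i j : ℕ} (hi : ∀ v, v < n → tt L S [i, i] v = v) (hj : ∀ v, v < n → tt L S [j, j] v = v)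
    (hc : ∀ v, v < n → tt L S [i, j, i] v = tt L S [j, i, j] v) : ∀ v, v < n → tt L S (coxW i j 3) v = v := by
  intro v hv
  have e : coxW i j 3 = [i, j, i] ++ [j, i, j] := rfl
  rw [e, tt_append, hc v hv]
  show tl L S j (tl L S i (tl L S j (tl L S j (tl L S i (tl L S j v))))) = v
  have h1 : tl L S j (tl L S j (tl L S i (tl L S j v))) = tl L S i (tl L S j v) := hj _ (tl_lt h (tl_lt h hv j) i)
  have h2 : tl L S i (tl L S i (tl L S j v)) = tl L S j v := hi _ (tl_lt h hv j)
  rw [h1, h2]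
  exact hj v hv

/-- the permutation of a letter -/
noncomputable def PP (h : Sys L n) (ht : ∀ y, 1 ≤ y → y < 13 → ∀ v, v < n → tl L S y (tl L S y v) = v) (y : ℕ) :
    Equiv.Perm (Fin n) :=
  if hy : 1 ≤ y ∧ y < 13 then
    { toFun := fun i => ⟨tl L S y i, tl_lt h i.2 y⟩
      invFun := fun i => ⟨tl L S y i, tl_lt h i.2 y⟩
      left_inv := fun i => Fin.ext (ht y hy.1 hy.2 i i.2)
      right_inv := fun i => Fin.ext (ht y hy.1 hy.2 i i.2) }
  else 1

variable (h : Sys L n) (ht : ∀ y, 1 ≤ y → y < 13 → ∀ v, v < n → tl L S y (tl L S y v) = v)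

theorem PP_apply {y : ℕ} (hy : 1 ≤ y ∧ y < 13) (i : Fin n) : ((PP h ht y i : Fin n) : ℕ) = tl L S y i := by
  unfold PP
  rw [dif_pos hy]; rfl

theorem PP_inv (y : ℕ) : (PP h ht y)⁻¹ = PP h ht y := by
  unfold PP
  split_ifs with hy
  · rfl
  · exact inv_one

theorem ev_PP : ∀ (w : List ℕ), (∀ y ∈ w, 1 ≤ y ∧ y < 13) → ∀ i : Fin n,
    ((((ev (PP h ht) w)⁻¹ : Equiv.Perm (Fin n)) i : Fin n) : ℕ) = tt L S w i
  | [], _, i => by simp [tt]
  | y :: w, hw, i => by
    have h1 : ((ev (PP h ht) (y :: w))⁻¹ : Equiv.Perm (Fin n)) i = (ev (PP h ht) w)⁻¹ ((PP h ht y)⁻¹ i) := by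
      rw [ev_cons, mul_inv_rev]; rfl
    rw [h1, ev_PP w (fun z hz => hw z (by simp [hz])), PP_inv, PP_apply h ht (hw y (by simp))]
    rfl

theorem ev_PP_one {w : List ℕ} (hw : ∀ y ∈ w, 1 ≤ y ∧ y < 13) (he : ∀ v, v < n → tt L S w v = v) :
    ev (PP h ht) w = 1 := by
  apply inv_injective
  ext i
  rw [ev_PP h ht w hw i, he i i.2]
  simp

end

/-! ### Rules from relators -/

section
variable {G : Type*} [Group G] {x : ℕ → G}

theorem ev_reverse {w : List ℕ} (hw : ∀ y ∈ w, x y * x y = 1) : ev x w.reverse = (ev x w)⁻¹ := by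
  induction w with
  | nil => simp
  | cons y w ih =>
    have h1 : (x y)⁻¹ = x y := inv_eq_of_mul_eq_one_left (hw y (by simp))
    rw [List.reverse_cons, ev_append, ih (fun z hz => hw z (by simp [hz])), ev_cons, ev_cons, ev_nil, mul_one,
      mul_inv_rev, h1]

/-- rotations of the long relators -/
def longChk (rl : List (List ℕ)) (w : List ℕ) : Bool :=
  rl.any fun r => (List.range r.length).any fun k => (w == r.drop k ++ r.take k) || (w == r.reverse.drop k ++ r.reverse.take k)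

/-- check of a rule -/
def ruleB (rels rl : List (List ℕ)) (r : Rule) : Bool :=
  Nat.ble 1 r.1 && Nat.blt r.1 13 && (r.2.1 :: r.2.2).all (fun y => Nat.ble 1 y && Nat.blt y 13) &&
  ((((r.2.1 :: r.2.2) ++ [r.1] == coxW r.2.1 r.1 2) && pairOk rels r.2.1 r.1 2) ||
   (((r.2.1 :: r.2.2) ++ [r.1] == coxW r.2.1 r.1 3) && pairOk rels r.2.1 r.1 3) ||
   longChk rl ((r.2.1 :: r.2.2) ++ [r.1]))

theorem ruleB_sound {rels rl : List (List ℕ)} (hrels : ∀ w ∈ rels, ev x w = 1) (hrl : ∀ w ∈ rl, ev x w = 1)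
    (hrl2 : ∀ w ∈ rl, ∀ y ∈ w, 1 ≤ y ∧ y < 13)
    (hsq : ∀ y, 1 ≤ y → y < 13 → x y * x y = 1) {r : Rule} (h : ruleB rels rl r = true) :
    (1 ≤ r.1 ∧ r.1 < 13) ∧ (∀ y ∈ r.2.1 :: r.2.2, 1 ≤ y ∧ y < 13) ∧ ev x (r.2.1 :: r.2.2) = x r.1 := by
  unfold ruleB at h
  rw [Bool.and_eq_true, Bool.and_eq_true, Bool.and_eq_true] at h
  obtain ⟨⟨⟨h1, h2⟩, h3⟩, h4⟩ := h
  rw [Nat.ble_eq] at h1
  rw [Nat.blt_eq] at h2
  rw [List.all_eq_true] at h3
  have h3' : ∀ y ∈ r.2.1 :: r.2.2, 1 ≤ y ∧ y < 13 := by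
    intro y hy
    have := h3 y hy
    rw [Bool.and_eq_true, Nat.ble_eq, Nat.blt_eq] at this
    exact this
  refine ⟨⟨h1, h2⟩, h3', ?_⟩
  have key : ev x ((r.2.1 :: r.2.2) ++ [r.1]) = 1 := by
    have h0 := h3' r.2.1 (by simp)
    rw [Bool.or_eq_true, Bool.or_eq_true, Bool.and_eq_true, Bool.and_eq_true, beq_iff_eq, beq_iff_eq] at h4
    rcases h4 with (⟨e, hp⟩ | ⟨e, hp⟩) | hl
    · rw [e, ev_coxW]
      exact pairOk_sound hrels (hsq _ h0.1 h0.2) hp
    · rw [e, ev_coxW]
      exact pairOk_sound hrels (hsq _ h0.1 h0.2) hp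
    · unfold longChk at hl
      rw [List.any_eq_true] at hl
      obtain ⟨w, hw, hl⟩ := hl
      rw [List.any_eq_true] at hl
      obtain ⟨k, -, hl⟩ := hl
      rw [Bool.or_eq_true, beq_iff_eq, beq_iff_eq] at hl
      rcases hl with hl | hl
      · rw [hl]; exact ev_rot _ _ (hrl w hw)
      · rw [hl]
        apply ev_rot
        rw [ev_reverse (fun y hy => hsq y (hrl2 w hw y hy).1 (hrl2 w hw y hy).2), hrl w hw, inv_one]
  rw [ev_append, ev_cons (w := []), ev_nil, mul_one] at key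
  have h5 : (x r.1)⁻¹ = x r.1 := inv_eq_of_mul_eq_one_left (hsq _ h1 h2)
  rw [mul_eq_one_iff_eq_inv.1 key, h5]

end

end Cfsg.Agent.H28.BK
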