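import Mathlib
import Cfsg.Agent.H28_Tree

set_option autoImplicit false

/-!
Certificate trees with a further step: a point whose image is known, the value is removed everywhere else.
-/

namespace Cfsg.Agent.H28.Tree2

open Cfsg Cfsg.Agent.H7.Golay Cfsg.Agent.H7.Oct Cfsg.Agent.H7.M24 Cfsg.Agent.H28.Pk Cfsg.Agent.H28.Tree
open scoped Pointwise

/-- field `i` is the single value `v` -/
def singOK (P i v : ℕ) : Bool := Nat.blt i 24 && (Nat.blt v 24 &&
  Nat.beq (Nat.land (Nat.shiftRight P (Nat.mul 25 i)) 16777215) (Nat.pow 2 v))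

def singStep (P i v : ℕ) : ℕ :=
  Nat.lor (Nat.land P (Nat.xor FULL (Nat.shiftLeft D25 v))) (Nat.shiftLeft 1 (Nat.add (Nat.mul 25 i) v))

theorem val_singStep {g : Equiv.Perm GolayPt} {P : ℕ} (h : Val g P) {i v : ℕ} (hok : singOK P i v = true) :
    Val g (singStep P i v) := by
  unfold singOK at hok
  rw [Bool.and_eq_true, Bool.and_eq_true] at hok
  obtain ⟨hi, hv, hF⟩ := hok
  have hi := blt_lt hi
  have hv := blt_lt hv
  have hF : Nat.land (P >>> (25 * i)) 16777215 = 2 ^ v := Nat.eq_of_beq_eq_true hF
  have hiv : ix (g (pt i)) = v := by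
    have h1 := h i hi
    have h4 : (Nat.land (P >>> (25 * i)) 16777215).testBit (ix (g (pt i))) = true := by
      rw [land_testBit, Nat.testBit_shiftRight, h1, testBit_all (ix_lt _)]; rfl
    rw [hF, Nat.testBit_two_pow] at h4
    exact (of_decide_eq_true h4).symm
  intro j hj
  have hx : ix (g (pt j)) < 24 := ix_lt _
  unfold singStep
  rw [lor_testBit, Bool.or_eq_true]
  by_cases hji : j = i
  · right
    subst hji
    change (1 <<< (25 * j + v)).testBit _ = true
    rw [Nat.testBit_shiftLeft, hiv]
    simp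
  · left
    rw [land_testBit, h j hj, Bool.true_and]
    change (FULL ^^^ (D25 <<< v)).testBit _ = true
    rw [Nat.testBit_xor, Nat.testBit_shiftLeft, val_top g j hj, testBit_D25]
    have hne : ix (g (pt j)) ≠ v := by
      intro hc
      rw [← hiv] at hc
      have h1 := g.injective (ix_injective hc)
      have h2 := congrArg ix h1
      rw [ix_pt j hj, ix_pt i hi] at h2
      exact hji h2
    have : (decide (25 * j + ix (g (pt j)) ≥ v) && decide ((25 * j + ix (g (pt j)) - v) % 25 = 0 ∧
        25 * j + ix (g (pt j)) - v < 600)) = false := by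
      rw [Bool.and_eq_false_iff, decide_eq_false_iff_not, decide_eq_false_iff_not]
      by_cases hle : 25 * j + ix (g (pt j)) ≥ v
      · right
        rintro ⟨h1, _⟩
        omega
      · left; exact hle
    rw [this]; rfl

/-- certificates -/
inductive T2
  | bad (i : ℕ) : T2
  | good (l k : List ℕ) : T2
  | oct (a b w : ℕ) (n : T2) : T2
  | comm (k : ℕ) (n : T2) : T2
  | inv (n : T2) : T2
  | cub (n : T2) : T2
  | sing (i v : ℕ) (n : T2) : T2
  | split (i m : ℕ) (a b : T2) : T2

/-- the check -/
noncomputable def checkS2 (R : List (List ℕ × List ℕ)) (e : ℕ) (Q : List ℕ → List ℕ → Bool) (T : T2) : ℕ → Bool :=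
  T2.rec (motive := fun _ => ℕ → Bool)
    (fun i S => Nat.blt i 24 && Nat.beq (Nat.land (Nat.shiftRight (st S) (Nat.mul 25 i)) 16777215) 0)
    (fun l k S => Nat.beq (st S) (packL l) && (okList l && Q l k))
    (fun a b w _ ih S => Nat.blt a 759 && (Nat.blt b 759 && force (octAt a) fun o => force (octAt b) fun o' =>
      octOK (st S) o o' w && force (mk (octStep (st S) o o')) ih))
    (fun k _ ih S => Nat.blt k R.length &&
      force (mk (commStep (R.getD k ([], [])).1 (R.getD k ([], [])).2 (st S))) ih)
    (fun _ ih S => Nat.beq e 2 && force (mk (invStep (st S))) ih)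
    (fun _ ih S => Nat.beq e 3 && force (mk (cubStep (st S))) ih)
    (fun i v _ ih S => singOK (st S) i v && force (mk (singStep (st S) i v)) ih)
    (fun i m _ _ iha ihb S => force (mk (cut (st S) i m)) iha && force (mk (cut (st S) i (Nat.xor m 16777215))) ihb)
    T

/-- the check -/
noncomputable def check2 (R : List (List ℕ × List ℕ)) (e : ℕ) (Q : List ℕ → List ℕ → Bool) (T : T2) (P : ℕ) : Bool :=
  force (mk P) (checkS2 R e Q T)

theorem checkS2_spec {g : Equiv.Perm GolayPt} (hg : g ∈ M24) {R : List (List ℕ × List ℕ)} (hR : Rels g R) {e : ℕ}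
    (h2 : e = 2 → g * g = 1) (h3 : e = 3 → g * g * g = 1) (Q : List ℕ → List ℕ → Bool) :
    ∀ (T : T2) (S : ℕ), checkS2 R e Q T S = true → Val g (st S) → ∃ l k, Rep g l ∧ Q l k = true := by
  intro T
  induction T with
  | bad i =>
    intro S h hP
    exfalso
    change (Nat.blt i 24 && Nat.beq (Nat.land (Nat.shiftRight (st S) (Nat.mul 25 i)) 16777215) 0) = true at h
    rw [Bool.and_eq_true] at h
    have hi : i < 24 := blt_lt h.1
    have h : Nat.land ((st S) >>> (25 * i)) 16777215 = 0 := Nat.eq_of_beq_eq_true h.2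
    have h1 := hP i hi
    have h4 : (Nat.land ((st S) >>> (25 * i)) 16777215).testBit (ix (g (pt i))) = true := by
      rw [land_testBit, Nat.testBit_shiftRight, h1, testBit_all (ix_lt _)]; rfl
    rw [h, Nat.zero_testBit] at h4
    exact absurd h4 (by decide)
  | good l k =>
    intro S h hP
    change (Nat.beq (st S) (packL l) && (okList l && Q l k)) = true at h
    simp only [okList, Bool.and_eq_true, List.all_eq_true] at h
    obtain ⟨h1, ⟨hlen, h4⟩, hQ⟩ := h
    have hlen := Nat.eq_of_beq_eq_true hlen
    refine ⟨l, k, ⟨hlen, fun p => ?_⟩, hQ⟩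
    have h5 := hP (ix p) (ix_lt p)
    rw [Nat.eq_of_beq_eq_true h1, pt_ix] at h5
    have h6 : ix p < l.length := by rw [hlen]; exact ix_lt p
    rw [List.getD_eq_getElem _ _ h6]
    exact packL_spec l (fun a ha => blt_lt (h4 a ha)) (ix p) _ h6 ((ix_lt _).trans (by norm_num)) h5
  | oct a b w n ih =>
    intro S h hP
    change (Nat.blt a 759 && (Nat.blt b 759 && force (octAt a) fun o => force (octAt b) fun o' =>
      octOK (st S) o o' w && force (mk (octStep (st S) o o')) (checkS2 R e Q n))) = true at h
    simp only [force_eq, Bool.and_eq_true] at h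
    obtain ⟨ha, hb, hok, hn⟩ := h
    exact ih _ hn (by rw [st_mk]; exact val_octStep hg hP (octAt_mem ha) (octAt_mem hb) hok)
  | comm k n ih =>
    intro S h hP
    change (Nat.blt k R.length && force (mk (commStep (R.getD k ([], [])).1 (R.getD k ([], [])).2 (st S)))
      (checkS2 R e Q n)) = true at h
    simp only [force_eq, Bool.and_eq_true] at h
    have hk : k < R.length := blt_lt h.1
    obtain ⟨a, a', ha, ha', hc⟩ := hR (R.getD k ([], [])) (by
      rw [List.getD_eq_getElem _ _ hk]; exact List.getElem_mem hk)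
    exact ih _ h.2 (by rw [st_mk]; exact val_commStep ha ha' hc hP)
  | inv n ih =>
    intro S h hP
    change (Nat.beq e 2 && force (mk (invStep (st S))) (checkS2 R e Q n)) = true at h
    simp only [force_eq, Bool.and_eq_true] at h
    exact ih _ h.2 (by rw [st_mk]; exact val_invStep (h2 (Nat.eq_of_beq_eq_true h.1)) hP)
  | cub n ih =>
    intro S h hP
    change (Nat.beq e 3 && force (mk (cubStep (st S))) (checkS2 R e Q n)) = true at h
    simp only [force_eq, Bool.and_eq_true] at h
    exact ih _ h.2 (by rw [st_mk]; exact val_cubStep (h3 (Nat.eq_of_beq_eq_true h.1)) hP)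
  | sing i v n ih =>
    intro S h hP
    change (singOK (st S) i v && force (mk (singStep (st S) i v)) (checkS2 R e Q n)) = true at h
    simp only [force_eq, Bool.and_eq_true] at h
    exact ih _ h.2 (by rw [st_mk]; exact val_singStep hP h.1)
  | split i m A B iha ihb =>
    intro S h hP
    change (force (mk (cut (st S) i m)) (checkS2 R e Q A) &&
      force (mk (cut (st S) i (Nat.xor m 16777215))) (checkS2 R e Q B)) = true at h
    simp only [force_eq, Bool.and_eq_true] at h
    obtain ⟨h1, h2⟩ := h
    by_cases hm : m.testBit (ix (g (pt i))) = true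
    · exact iha _ h1 (by rw [st_mk]; exact val_cut hP hm)
    · refine ihb _ h2 ?_
      rw [st_mk]
      refine val_cut hP ?_
      rw [testBit_compl (ix_lt _)]
      simpa using hm

theorem check2_spec {g : Equiv.Perm GolayPt} (hg : g ∈ M24) {R : List (List ℕ × List ℕ)} (hR : Rels g R) {e : ℕ}
    (h2 : e = 2 → g * g = 1) (h3 : e = 3 → g * g * g = 1) (Q : List ℕ → List ℕ → Bool) (T : T2) (P : ℕ)
    (h : check2 R e Q T P = true) (hP : Val g P) : ∃ l k, Rep g l ∧ Q l k = true := by
  rw [check2, force_eq] at h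
  exact checkS2_spec hg hR h2 h3 Q T _ h (by rw [st_mk]; exact hP)

end Cfsg.Agent.H28.Tree2
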