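import Mathlib
import Cfsg.Agent.H28_Tree2
import Cfsg.Agent.H28_SxtOrb
import Cfsg.Agent.H28_Cls2
import Cfsg.Agent.H14_M24Eng

set_option autoImplicit false

/-!
Orders of subgroups of `M24` defined by relations: upper bounds from certificate trees, lower bounds from elements.
-/

namespace Cfsg.Agent.H28.Cen

open Cfsg Cfsg.Agent.H7.Golay Cfsg.Agent.H7.Oct Cfsg.Agent.H7.M24 Cfsg.Agent.H28.Pk Cfsg.Agent.H28.Tree
open Cfsg.Agent.H28.Tree2
open Cfsg.Agent.H14.M24Eng (comp invl powl rep_mul rep_inv rep_powl rep_one rep_eq_list fixes has_fixK')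
open scoped Pointwise

/-- no element -/
theorem bad_of {g : Equiv.Perm GolayPt} (hg : g ∈ M24) {R : List (List ℕ × List ℕ)} (hR : Rels g R) {e : ℕ}
    (h2 : e = 2 → g * g = 1) (h3 : e = 3 → g * g * g = 1) (T : T2) (P : ℕ)
    (h : check2 R e (fun _ _ => false) T P = true) (hP : Val g P) : False := by
  obtain ⟨l, k, _, hQ⟩ := check2_spec hg hR h2 h3 _ T P h hP
  exact absurd hQ (by decide)

/-- complement of the mask of a list -/
def cmask (L : List ℕ) : ℕ := Nat.xor (L.foldl (fun m i => Nat.lor m (Nat.pow 2 i)) 0) 16777215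

theorem testBit_foldl (L : List ℕ) : ∀ (m i : ℕ),
    (L.foldl (fun m i => Nat.lor m (Nat.pow 2 i)) m).testBit i = true ↔ m.testBit i = true ∨ i ∈ L := by
  induction L with
  | nil => intro m i; simp
  | cons a L ih =>
    intro m i
    rw [List.foldl_cons, ih, lor_testBit, Bool.or_eq_true, List.mem_cons, or_assoc]
    change _ ∨ (2 ^ a).testBit i = true ∨ _ ↔ _
    rw [Nat.testBit_two_pow, decide_eq_true_iff]
    constructor
    · rintro (h | h | h)
      · exact Or.inl h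
      · exact Or.inr (Or.inl h.symm)
      · exact Or.inr (Or.inr h)
    · rintro (h | h | h)
      · exact Or.inl h
      · exact Or.inr (Or.inl h.symm)
      · exact Or.inr (Or.inr h)

theorem testBit_cmask {L : List ℕ} {i : ℕ} (hi : i < 24) : (cmask L).testBit i = true ↔ i ∉ L := by
  unfold cmask
  rw [testBit_compl hi, Bool.not_eq_true', ← Bool.not_eq_true, testBit_foldl]
  simp

/-- the initial state: the points of `l` are fixed, `b` goes outside `L` -/
def st0 (l : List ℕ) (b : ℕ) (L : List ℕ) : ℕ := cuts ((b, cmask L) :: l.map fun i => (i, Nat.pow 2 i))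

theorem val_st0 {K : Subgroup (Equiv.Perm GolayPt)} {l : List ℕ} (hl : ∀ i ∈ l, i < 24) {b : ℕ} {L : List ℕ}
    {g : Equiv.Perm GolayPt} (hg : g ∈ fixK K l) (hb : ix (g (pt b)) ∉ L) : Val g (st0 l b L) := by
  apply val_cuts
  intro x hx
  rw [List.mem_cons] at hx
  rcases hx with rfl | hx
  · exact (testBit_cmask (ix_lt _)).2 hb
  · rw [List.mem_map] at hx
    obtain ⟨i, hi, rfl⟩ := hx
    have h1 := (mem_fixK.1 hg).2 (pt i) (by rw [ix_pt i (hl i hi)]; exact hi)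
    rw [h1, ix_pt i (hl i hi)]
    exact Nat.testBit_two_pow_self

theorem inv_of_tree {K : Subgroup (Equiv.Perm GolayPt)} (hK : K ≤ M24) {R : List (List ℕ × List ℕ)}
    (hR : ∀ g ∈ K, Rels g R) {l : List ℕ} (hl : ∀ i ∈ l, i < 24) {b : ℕ} {L : List ℕ} (T : T2)
    (h : check2 R 0 (fun _ _ => false) T (st0 l b L) = true) : ∀ g ∈ fixK K l, ix (g (pt b)) ∈ L := by
  intro g hg
  by_contra hc
  have hg' := (mem_fixK.1 hg).1
  exact bad_of (hK hg') (hR g hg') (e := 0) (fun h => absurd h (by norm_num)) (fun h => absurd h (by norm_num)) T _ h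
    (val_st0 hl hg hc)

/-- elements fixing the points of `l` -/
def st1 (l : List ℕ) : ℕ := cuts (l.map fun i => (i, Nat.pow 2 i))

theorem val_st1 {K : Subgroup (Equiv.Perm GolayPt)} {l : List ℕ} (hl : ∀ i ∈ l, i < 24)
    {g : Equiv.Perm GolayPt} (hg : g ∈ fixK K l) : Val g (st1 l) := by
  apply val_cuts
  intro x hx
  rw [List.mem_map] at hx
  obtain ⟨i, hi, rfl⟩ := hx
  have h1 := (mem_fixK.1 hg).2 (pt i) (by rw [ix_pt i (hl i hi)]; exact hi)
  rw [h1, ix_pt i (hl i hi)]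
  exact Nat.testBit_two_pow_self

theorem good_of_tree {K : Subgroup (Equiv.Perm GolayPt)} (hK : K ≤ M24) {R : List (List ℕ × List ℕ)}
    (hR : ∀ g ∈ K, Rels g R) {l : List ℕ} (hl : ∀ i ∈ l, i < 24) (LL : List (List ℕ)) (T : T2)
    (h : check2 R 0 (fun r _ => LL.any fun r' => beqL r r') T (st1 l) = true) :
    ∀ g ∈ fixK K l, ∃ r ∈ LL, Rep g r := by
  intro g hg
  have hg' := (mem_fixK.1 hg).1
  obtain ⟨r, k, hr, hQ⟩ := check2_spec (hK hg') (hR g hg') (e := 0) (fun h => absurd h (by norm_num))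
    (fun h => absurd h (by norm_num)) _ T _ h (val_st1 hl hg)
  rw [List.any_eq_true] at hQ
  obtain ⟨r', h1, h2⟩ := hQ
  rw [← beqL_eq h2] at h1
  exact ⟨r, h1, hr⟩

theorem card_one_of_tree {K : Subgroup (Equiv.Perm GolayPt)} (hK : K ≤ M24) {R : List (List ℕ × List ℕ)}
    (hR : ∀ g ∈ K, Rels g R) {l : List ℕ} (hl : ∀ i ∈ l, i < 24) (T : T2)
    (h : check2 R 0 (fun r _ => [List.range 24].any fun r' => beqL r r') T (st1 l) = true) :
    Nat.card (fixK K l) = 1 := by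
  rw [Nat.card_eq_one_iff_unique]
  refine ⟨⟨fun x y => ?_⟩, ⟨1⟩⟩
  apply Subtype.ext
  obtain ⟨r, hr, h1⟩ := good_of_tree hK hR hl _ T h x.1 x.2
  obtain ⟨r', hr', h2⟩ := good_of_tree hK hR hl _ T h y.1 y.2
  rw [List.mem_singleton] at hr hr'
  subst hr hr'
  exact h1.unique h2

/-- the centraliser of an element -/
def cenM (z : Equiv.Perm GolayPt) : Subgroup (Equiv.Perm GolayPt) := M24 ⊓ Subgroup.centralizer {z}

theorem mem_cenM {z g : Equiv.Perm GolayPt} : g ∈ cenM z ↔ g ∈ M24 ∧ g * z = z * g := by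
  unfold cenM
  rw [Subgroup.mem_inf, Subgroup.mem_centralizer_iff]
  constructor
  · rintro ⟨h, h1⟩
    exact ⟨h, (h1 z rfl).symm⟩
  · rintro ⟨h, h1⟩
    refine ⟨h, ?_⟩
    rintro x hx
    rw [Set.mem_singleton_iff] at hx
    subst hx
    exact h1.symm

theorem cenM_le (z : Equiv.Perm GolayPt) : cenM z ≤ M24 := fun _ h => (mem_cenM.1 h).1

theorem rels_cen {z : Equiv.Perm GolayPt} {r : List ℕ} (hr : Rep z r) : ∀ g ∈ cenM z, Rels g [(invl r, r)] := by
  intro g hg x hx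
  rw [List.mem_singleton] at hx
  subst hx
  exact ⟨z, z, rep_inv hr, hr, (mem_cenM.1 hg).2⟩

theorem has_cen {z : Equiv.Perm GolayPt} {r : List ℕ} (hr : Rep z r) {gs : List (List ℕ)}
    (h : gs.all (fun l => isM24 l && beqL (comp l r) (comp r l)) = true) : Has (cenM z) gs := by
  intro l hl
  have h1 := List.all_eq_true.1 h l hl
  rw [Bool.and_eq_true] at h1
  obtain ⟨g, hg, hgr⟩ := exists_M24 h1.1
  refine ⟨g, mem_cenM.2 ⟨hg, ?_⟩, hgr⟩
  have h2 := rep_mul hgr hr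
  have h3 := rep_mul hr hgr
  rw [beqL_eq h1.2] at h2
  exact h2.unique h3

theorem fixK_nil (K : Subgroup (Equiv.Perm GolayPt)) : fixK K [] = K := by
  ext g
  rw [mem_fixK]
  simp

theorem card_cen_conj {z z' c : Equiv.Perm GolayPt} (hc : c ∈ M24) (h : c * z * c⁻¹ = z') :
    Nat.card (cenM z) = Nat.card (cenM z') := by
  apply Nat.card_congr
  refine ⟨fun g => ⟨c * g.1 * c⁻¹, ?_⟩, fun g => ⟨c⁻¹ * g.1 * c, ?_⟩, fun g => ?_, fun g => ?_⟩
  · obtain ⟨h1, h2⟩ := mem_cenM.1 g.2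
    refine mem_cenM.2 ⟨mul_mem (mul_mem hc h1) (inv_mem hc), ?_⟩
    rw [← h]
    have e1 : c * g.1 * c⁻¹ * (c * z * c⁻¹) = c * (g.1 * z) * c⁻¹ := by group
    have e2 : c * z * c⁻¹ * (c * g.1 * c⁻¹) = c * (z * g.1) * c⁻¹ := by group
    rw [e1, e2, h2]
  · obtain ⟨h1, h2⟩ := mem_cenM.1 g.2
    refine mem_cenM.2 ⟨mul_mem (mul_mem (inv_mem hc) h1) hc, ?_⟩
    have hz : z = c⁻¹ * z' * c := by rw [← h]; group
    rw [hz]
    have e1 : c⁻¹ * g.1 * c * (c⁻¹ * z' * c) = c⁻¹ * (g.1 * z') * c := by group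
    have e2 : c⁻¹ * z' * c * (c⁻¹ * g.1 * c) = c⁻¹ * (z' * g.1) * c := by group
    rw [e1, e2, h2]
  · apply Subtype.ext
    show c⁻¹ * (c * g.1 * c⁻¹) * c = g.1
    group
  · apply Subtype.ext
    show c * (c⁻¹ * g.1 * c) * c⁻¹ = g.1
    group

end Cfsg.Agent.H28.Cen
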