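import Cfsg.Agent.H28_Large3

set_option autoImplicit false
set_option linter.all false
open Cfsg
open scoped commutatorElement

namespace Cfsg.Agent.H28.Large

open Cfsg.Agent.H28.Xsp

variable {G : Type*} [Group G] [Finite G]

/-- `O_2(C(x))` as a subgroup of `G`. -/
abbrev coreC (x : G) : Subgroup G :=
  (Cfsg.pCore 2 ↥(Subgroup.centralizer ({x} : Set G))).map (Subgroup.centralizer ({x} : Set G)).subtype

theorem coreC_le (x : G) : coreC x ≤ Subgroup.centralizer ({x} : Set G) := by
  rintro _ ⟨y, _, rfl⟩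
  exact y.2

theorem coreC_isPGroup (x : G) : IsPGroup 2 (coreC x) := by
  have : Fact (Nat.Prime 2) := ⟨Nat.prime_two⟩
  exact (H1.Nilp.pCore_isPGroup (G := ↥(Subgroup.centralizer ({x} : Set G))) 2).map _

theorem coreC_conj_mem (x : G) {c n : G} (hc : c * x = x * c) (hn : n ∈ coreC x) :
    c * n * c⁻¹ ∈ coreC x := by
  obtain ⟨y, hy, rfl⟩ := hn
  have hN : (Cfsg.pCore 2 ↥(Subgroup.centralizer ({x} : Set G))).Normal := H1.Nilp.pCore_normal 2
  have hc' : c ∈ Subgroup.centralizer ({x} : Set G) := Subgroup.mem_centralizer_singleton_iff.mpr hc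
  exact ⟨⟨c, hc'⟩ * y * ⟨c, hc'⟩⁻¹, hN.conj_mem y hy ⟨c, hc'⟩, rfl⟩

theorem le_coreC {x : G} {N : Subgroup G} (hN : IsPGroup 2 N)
    (hNx : N ≤ Subgroup.centralizer ({x} : Set G))
    (hc : ∀ c : G, c * x = x * c → ∀ n ∈ N, c * n * c⁻¹ ∈ N) : N ≤ coreC x := by
  intro n hn
  have h1 : (N.subgroupOf (Subgroup.centralizer ({x} : Set G))).Normal := by
    constructor
    intro y hy c
    rw [Subgroup.mem_subgroupOf] at hy ⊢
    exact hc c (Subgroup.mem_centralizer_singleton_iff.mp c.2) y hy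
  have h2 : IsPGroup 2 (N.subgroupOf (Subgroup.centralizer ({x} : Set G))) :=
    hN.comap_of_injective _ (Subgroup.subtype_injective _)
  have h3 := H1.Nilp.le_pCore h1 h2
  exact ⟨⟨n, hNx hn⟩, h3 (Subgroup.mem_subgroupOf.mpr hn), rfl⟩

theorem self_mem_coreC {x : G} (hx : x * x = 1) : x ∈ coreC x := by
  have h1 : Subgroup.zpowers x ≤ coreC x := by
    apply le_coreC
    · intro y
      refine ⟨1, ?_⟩
      apply Subtype.ext
      have := (mem_zpowers_of_sq hx).mp y.2
      show (y : G) ^ (2 ^ 1) = 1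
      rw [pow_one, pow_two]
      rcases this with h | h <;> rw [h]
      · simp
      · exact hx
    · rw [Subgroup.zpowers_le, Subgroup.mem_centralizer_singleton_iff]
    · intro c hc n hn
      rw [mem_zpowers_of_sq hx] at hn ⊢
      rcases hn with rfl | rfl
      · left; group
      · right; rw [hc, mul_inv_cancel_right]
  exact h1 (Subgroup.mem_zpowers x)

theorem conj_le_coreC (g x : G) : (coreC x).map (MulAut.conj g).toMonoidHom ≤ coreC (g * x * g⁻¹) := by
  apply le_coreC ((coreC_isPGroup x).map _)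
  · intro y hy
    rw [mem_map_conj] at hy
    have h1 := Subgroup.mem_centralizer_singleton_iff.mp (coreC_le x hy)
    rw [Subgroup.mem_centralizer_singleton_iff]
    calc y * (g * x * g⁻¹) = g * ((g⁻¹ * y * g) * x) * g⁻¹ := by group
      _ = g * (x * (g⁻¹ * y * g)) * g⁻¹ := by rw [h1]
      _ = _ := by group
  · intro c hc n hn
    rw [mem_map_conj] at hn ⊢
    have h1 : (g⁻¹ * c * g) * x = x * (g⁻¹ * c * g) := by
      calc (g⁻¹ * c * g) * x = g⁻¹ * (c * (g * x * g⁻¹)) * g := by group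
        _ = g⁻¹ * ((g * x * g⁻¹) * c) * g := by rw [hc]
        _ = _ := by group
    have h2 := coreC_conj_mem x h1 hn
    have h3 : g⁻¹ * (c * n * c⁻¹) * g = g⁻¹ * c * g * (g⁻¹ * n * g) * (g⁻¹ * c * g)⁻¹ := by group
    rwa [h3]

theorem conj_coreC (g x : G) : (coreC x).map (MulAut.conj g).toMonoidHom = coreC (g * x * g⁻¹) := by
  apply le_antisymm (conj_le_coreC g x)
  intro y hy
  have h1 := conj_le_coreC g⁻¹ (g * x * g⁻¹)
  have h2 : g⁻¹ * (g * x * g⁻¹) * g⁻¹⁻¹ = x := by group
  rw [h2] at h1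
  rw [mem_map_conj]
  apply h1
  rw [mem_map_conj]
  have : g⁻¹⁻¹ * (g⁻¹ * y * g) * g⁻¹ = y := by group
  rwa [this]

/-- from a self-centralizing extraspecial `O_2(C(z))`. -/
theorem pre_coreC {z : G} (hz : orderOf z = 2) (hE : Cfsg.IsExtraspecial 2 ↥(coreC z))
    (hC : Subgroup.centralizer ((coreC z : Subgroup G) : Set G) ≤ coreC z) : Pre (coreC z) z := by
  have hzz := H28.Basic.mul_self_of_orderOf hz
  obtain ⟨w, hw⟩ := Xsp.exists_of_isExtraspecial hE
  have hzw : z = w := by
    rcases hw.cen z (self_mem_coreC hzz) (fun y hy =>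
      (Subgroup.mem_centralizer_singleton_iff.mp (coreC_le z hy)).symm) with h | h
    · exfalso
      rw [h] at hz
      simp at hz
    · exact h
  subst hzw
  refine ⟨hw, ?_, ?_, Xsp.not_comm_of_isExtraspecial hE⟩
  · apply le_antisymm
    · intro y hy
      rw [mem_zpowers_of_sq hw.sq]
      exact hw.cen y (hC hy) (fun u hu => ((Subgroup.mem_centralizer_iff.mp hy) u hu).symm)
    · rw [Subgroup.zpowers_le, Subgroup.mem_centralizer_iff]
      intro y hy
      exact (hw.zc y hy).symm
  · intro c hc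
    rw [Subgroup.mem_centralizer_singleton_iff] at hc
    rw [Subgroup.mem_normalizer_iff]
    intro y
    constructor
    · intro hy; exact coreC_conj_mem z hc hy
    · intro hy
      have hc' : c⁻¹ * z = z * c⁻¹ := by
        calc c⁻¹ * z = c⁻¹ * (z * c) * c⁻¹ := by group
          _ = c⁻¹ * (c * z) * c⁻¹ := by rw [hc]
          _ = _ := by group
      have := coreC_conj_mem z hc' hy
      simpa [mul_assoc] using this

/-- symmetric form for conjugates. -/
theorem Pre.sym_conj {Q : Subgroup G} {z : G} (h : Pre Q z) (g : G) (hx : g * z * g⁻¹ ∈ Q) :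
    z ∈ Q.map (MulAut.conj g).toMonoidHom := by
  apply h.sym (h.conj g) hx
  · exact Subgroup.card_map_of_injective (MulAut.conj g).injective
  · intro k hk
    exact h.map_conj_eq hk

end Cfsg.Agent.H28.Large
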