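import Cfsg.Agent.H28_Basic

set_option autoImplicit false
open Cfsg

namespace Cfsg.Agent.H28.Dih

open Cfsg.Agent.H28.Basic

variable {G : Type*} [Group G]

theorem a_conj {a b : G} (ha : a * a = 1) (hb : b * b = 1) :
    a * (a * b) * a⁻¹ = (a * b)⁻¹ := by
  have ha' : a⁻¹ = a := inv_eq_of_mul_eq_one_left ha
  have hb' : b⁻¹ = b := inv_eq_of_mul_eq_one_left hb
  rw [mul_inv_rev, ha', hb', ← mul_assoc, ha, one_mul]

theorem b_conj {a b : G} (ha : a * a = 1) (hb : b * b = 1) :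
    b * (a * b) * b⁻¹ = (a * b)⁻¹ := by
  have ha' : a⁻¹ = a := inv_eq_of_mul_eq_one_left ha
  have hb' : b⁻¹ = b := inv_eq_of_mul_eq_one_left hb
  rw [mul_inv_rev, ha', hb', mul_assoc, mul_assoc, hb, mul_one]

/-- `a` inverts `(ab)^n`. -/
theorem a_conj_pow {a b : G} (ha : a * a = 1) (hb : b * b = 1) (n : ℕ) :
    a * (a * b) ^ n * a⁻¹ = ((a * b) ^ n)⁻¹ := by
  rw [← _root_.conj_pow, a_conj ha hb, inv_pow]

theorem b_conj_pow {a b : G} (ha : a * a = 1) (hb : b * b = 1) (n : ℕ) :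
    b * (a * b) ^ n * b⁻¹ = ((a * b) ^ n)⁻¹ := by
  rw [← _root_.conj_pow, b_conj ha hb, inv_pow]

/-- conjugating an element inverting `c` by `c`. -/
theorem conj_of_inverts {a c : G} (h : a * c * a⁻¹ = c⁻¹) : c * a * c⁻¹ = c ^ 2 * a := by
  have h3 : a * c⁻¹ = c * a := by
    have : a * c⁻¹ * a⁻¹ = c := by
      have := congrArg (·⁻¹) h
      simpa [mul_assoc] using this
    calc a * c⁻¹ = a * c⁻¹ * a⁻¹ * a := by rw [inv_mul_cancel_right]
      _ = c * a := by rw [this]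
  rw [mul_assoc, h3, ← mul_assoc, pow_two]

theorem conj_pow_a {a b : G} (ha : a * a = 1) (hb : b * b = 1) (n : ℕ) :
    (a * b) ^ n * a * ((a * b) ^ n)⁻¹ = (a * b) ^ (2 * n) * a := by
  rw [conj_of_inverts (a_conj_pow ha hb n), ← pow_mul, mul_comm n 2]

theorem conj_pow_b {a b : G} (ha : a * a = 1) (hb : b * b = 1) (n : ℕ) :
    (a * b) ^ n * b * ((a * b) ^ n)⁻¹ = (a * b) ^ (2 * n) * b := by
  rw [conj_of_inverts (b_conj_pow ha hb n), ← pow_mul, mul_comm n 2]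

/-- If `ab` has odd order `2k+1`, then `(ab)^(k+1)` conjugates `b` to `a`. -/
theorem conj_of_odd {a b : G} (ha : a * a = 1) (hb : b * b = 1) (k : ℕ)
    (hk : (a * b) ^ (2 * k + 1) = 1) :
    (a * b) ^ (k + 1) * b * ((a * b) ^ (k + 1))⁻¹ = a := by
  rw [conj_pow_b ha hb, show 2 * (k + 1) = 2 * k + 1 + 1 from by ring, pow_succ, hk, one_mul,
    mul_assoc, hb, mul_one]

/-- If `ab` has odd order `2k+1`, then `(ab)^k` conjugates `a` to `b`. -/
theorem conj_of_odd' {a b : G} (ha : a * a = 1) (hb : b * b = 1) (k : ℕ)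
    (hk : (a * b) ^ (2 * k + 1) = 1) :
    (a * b) ^ k * a * ((a * b) ^ k)⁻¹ = b := by
  have hb' : b⁻¹ = b := inv_eq_of_mul_eq_one_left hb
  rw [conj_pow_a ha hb]
  have h2 : (a * b) ^ (2 * k) = (a * b)⁻¹ := by
    apply eq_inv_of_mul_eq_one_left
    rw [← pow_succ, hk]
  rw [h2, mul_inv_rev, inv_mul_cancel_right, hb']

theorem isConj_of_odd {a b : G} (ha : a * a = 1) (hb : b * b = 1)
    (hodd : Odd (orderOf (a * b))) : IsConj a b := by
  obtain ⟨k, hk⟩ := hodd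
  rw [isConj_iff]
  exact ⟨_, conj_of_odd' ha hb k (by rw [← hk]; exact pow_orderOf_eq_one _)⟩

/-- even order: central involution. -/
theorem even_central {a b : G} (ha : a * a = 1) (hb : b * b = 1) (k : ℕ)
    (hk : orderOf (a * b) = 2 * k) (hk0 : 0 < k) :
    (a * b) ^ k * (a * b) ^ k = 1 ∧ (a * b) ^ k ≠ 1 ∧
      Commute a ((a * b) ^ k) ∧ Commute b ((a * b) ^ k) ∧
      (IsConj a (a * (a * b) ^ k) ∨ IsConj b (a * (a * b) ^ k)) := by
  have h1 : (a * b) ^ k * (a * b) ^ k = 1 := by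
    rw [← pow_add, ← two_mul, ← hk, pow_orderOf_eq_one]
  have h2 : (a * b) ^ k ≠ 1 := by
    intro h
    have := orderOf_dvd_of_pow_eq_one h
    rw [hk] at this
    have := Nat.le_of_dvd hk0 this
    omega
  have hinv : ((a * b) ^ k)⁻¹ = (a * b) ^ k := inv_eq_of_mul_eq_one_left h1
  have h3 : Commute a ((a * b) ^ k) := by
    have := a_conj_pow ha hb k
    rw [hinv, mul_inv_eq_iff_eq_mul] at this
    exact this
  have h4 : Commute b ((a * b) ^ k) := by
    have := b_conj_pow ha hb k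
    rw [hinv, mul_inv_eq_iff_eq_mul] at this
    exact this
  refine ⟨h1, h2, h3, h4, ?_⟩
  rcases Nat.even_or_odd k with ⟨m, hm⟩ | ⟨m, hm⟩
  · left
    rw [isConj_iff]
    refine ⟨(a * b) ^ m, ?_⟩
    rw [conj_pow_a ha hb, h3.eq, two_mul, ← hm]
  · right
    rw [isConj_iff]
    refine ⟨(a * b) ^ (m + 1), ?_⟩
    rw [conj_pow_b ha hb, h3.eq, hm, show 2 * (m + 1) = 2 * m + 1 + 1 from by ring,
      pow_succ (a * b) (2 * m + 1)]
    rw [mul_assoc _ (a * b) b, mul_assoc a b b, hb, mul_one]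

theorem isConj_mul_self {a b : G} (ha : a * a = 1) (h : IsConj a b) : b * b = 1 := by
  rw [isConj_iff] at h
  obtain ⟨c, rfl⟩ := h
  calc c * a * c⁻¹ * (c * a * c⁻¹) = c * (a * a) * c⁻¹ := by group
    _ = 1 := by rw [ha]; group

end Cfsg.Agent.H28.Dih
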