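import Cfsg.Agent.H28_F24L
import Cfsg.Agent.H8_Act

set_option autoImplicit false
set_option maxRecDepth 1000000

namespace Cfsg.Agent.H28.F24

open Cfsg.Agent.H8.Net BK

/-- all the letters in labelling 1 -/
noncomputable def LP : List Nt := [.nil, na, cat p12 (cat nb p21), nc, cat p12 (cat nd p21), ne, cat p12 (cat nf p21),
  ng, cat p12 (cat nj p21), nh, cat p12 (cat ni p21), cat p12 (cat nk p21), nl]

theorem sysP : sysOk LP (nat_lit 306936) = true := by decide +kernel

theorem rG : reachIv LP [1, 3, 5, 7, 9, 12, 2, 4, 6, 10, 8, 11] (nat_lit 10) (nat_lit 306935) (nat_lit 0) (nat_lit 306936) = true := by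
  decide +kernel

theorem rA : reachIv LP [1, 3, 5, 7, 9, 12, 2, 4, 6, 10, 8] (nat_lit 6) (nat_lit 275264) (nat_lit 275264) (nat_lit 306935) = true := by
  decide +kernel

theorem rB : reachIv LP [1, 3, 5, 7, 9, 12, 2, 4, 6, 10, 8] (nat_lit 10) (nat_lit 275136) (nat_lit 0) (nat_lit 275264) = true := by
  decide +kernel

theorem fA : fixP LP [1] [nat_lit 306912] = true := by decide +kernel

theorem fB : fixP LP [2] [nat_lit 275136] = true := by decide +kernel

theorem fH : fixP LP [1, 2, 3, 4, 5, 6, 7, 8, 9, 10, 12] [nat_lit 306935] = true := by decide +kernel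

end Cfsg.Agent.H28.F24
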