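import Cfsg.Agent.H28_F24F

set_option autoImplicit false
set_option maxRecDepth 100000
set_option linter.constructorNameAsVariable false

namespace Cfsg.Agent.H28.F24

open Cfsg.Agent.H8.CE (ev ev_nil ev_cons ev_append il)
open Cfsg.Agent.H8.Net Cfsg.Agent.H8.Act BK Cfsg.Spor
open Cfsg.Agent.H12.Fi24A (γ)

theorem sd_true {y : ℕ} (h : sd SS y = true) (v : ℕ) :
    tl LL SS y v = (net LL 14).pos ((net LL y).pos ((net LL 13).pos v)) := by
  unfold tl; rw [if_pos h]

theorem sd_false {y : ℕ} (h : sd SS y = false) (v : ℕ) : tl LL SS y v = (net LL y).pos v := by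
  unfold tl; rw [if_neg (by rw [h]; simp)]

theorem netP (y : ℕ) (h1 : 1 ≤ y) (h2 : y < 13) (v : ℕ) : (net LP y).pos v = tl LL SS y v := by
  interval_cases y
  · rw [sd_false (by decide +kernel)]; rfl
  · rw [sd_true (by decide +kernel)]
    show (cat p12 (cat nb p21)).pos v = p12.pos (nb.pos (p21.pos v))
    rw [cat_pos, cat_pos]
  · rw [sd_false (by decide +kernel)]; rfl
  · rw [sd_true (by decide +kernel)]
    show (cat p12 (cat nd p21)).pos v = p12.pos (nd.pos (p21.pos v))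
    rw [cat_pos, cat_pos]
  · rw [sd_false (by decide +kernel)]; rfl
  · rw [sd_true (by decide +kernel)]
    show (cat p12 (cat nf p21)).pos v = p12.pos (nf.pos (p21.pos v))
    rw [cat_pos, cat_pos]
  · rw [sd_false (by decide +kernel)]; rfl
  · rw [sd_true (by decide +kernel)]
    show (cat p12 (cat nj p21)).pos v = p12.pos (nj.pos (p21.pos v))
    rw [cat_pos, cat_pos]
  · rw [sd_false (by decide +kernel)]; rfl
  · rw [sd_true (by decide +kernel)]
    show (cat p12 (cat ni p21)).pos v = p12.pos (ni.pos (p21.pos v))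
    rw [cat_pos, cat_pos]
  · rw [sd_true (by decide +kernel)]
    show (cat p12 (cat nk p21)).pos v = p12.pos (nk.pos (p21.pos v))
    rw [cat_pos, cat_pos]
  · rw [sd_false (by decide +kernel)]; rfl

theorem P_val {y : ℕ} (h1 : 1 ≤ y) (h2 : y < 13) (i : Fin 306936) : ((P y i : Fin 306936) : ℕ) = (net LP y).pos i := by
  rw [netP y h1 h2]
  exact PP_apply Y ht ⟨h1, h2⟩ i

theorem φ_invol {y : ℕ} (h1 : 1 ≤ y) (h2 : y < 13) (i : Fin 306936) : P y (P y i) = i := by
  have := sq_P y h1 h2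
  have h3 : (P y * P y) i = (1 : Equiv.Perm (Fin 306936)) i := by rw [this]
  exact h3

theorem orb {K : Subgroup Fi24} {ys : List ℕ} {r c a b : ℕ} (hr : reachIv LP ys r c a b = true) (hab : a ≤ b)
    (hys : ∀ y ∈ ys, (1 ≤ y ∧ y < 13) ∧ x y ∈ K) (hc : c < 306936) :
    ∀ i (hi : i < 306936), a ≤ i → i < b → ∃ g ∈ K, φ g ⟨c, hc⟩ = ⟨i, hi⟩ := by
  intro i hi h1 h2
  have key := reachIv_sound sysP hab hr (P := fun i => ∀ hi : i < 306936, ∃ g ∈ K, φ g ⟨c, hc⟩ = ⟨i, hi⟩)
    (fun _ => ⟨1, K.one_mem, by simp⟩) (by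
      intro y hy j hj hj2
      obtain ⟨⟨y1, y2⟩, y3⟩ := hys y hy
      have hlt : (net LP y).pos j < 306936 := ((net_mem sysP y).2 j).2 hj2
      obtain ⟨g, hg, hg2⟩ := hj hlt
      refine ⟨x y * g, K.mul_mem y3 hg, ?_⟩
      rw [map_mul, Equiv.Perm.mul_apply, hg2, φx]
      have e : (⟨(net LP y).pos j, hlt⟩ : Fin 306936) = P y ⟨j, hj2⟩ := Fin.ext (P_val y1 y2 ⟨j, hj2⟩).symm
      rw [e]
      exact φ_invol y1 y2 _)
  exact key i h1 h2 hi

theorem ncard_iv {n a b : ℕ} (hb : b ≤ n) : ({i : Fin n | a ≤ i.val ∧ i.val < b} : Set (Fin n)).ncard = b - a := by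
  have h1 : (Fin.val '' ({i : Fin n | a ≤ i.val ∧ i.val < b} : Set (Fin n))) = ((Finset.Ico a b : Finset ℕ) : Set ℕ) := by
    ext j
    simp only [Set.mem_image, Set.mem_ofPred_eq, Finset.coe_Ico, Set.mem_Ico]
    constructor
    · rintro ⟨i, hi, rfl⟩; exact hi
    · rintro ⟨h2, h3⟩; exact ⟨⟨j, by omega⟩, ⟨h2, h3⟩, rfl⟩
  rw [← Set.ncard_image_of_injective _ Fin.val_injective, h1, Set.ncard_coe_finset, Nat.card_Ico]

/-- base point -/
def b0 : Fin 306936 := ⟨306935, by norm_num⟩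

def SA : Set (Fin 306936) := {i | 275264 ≤ i.val ∧ i.val < 306935}
def SB : Set (Fin 306936) := {i | 0 ≤ i.val ∧ i.val < 275264}

theorem hlH : ∀ y ∈ hl, x y ∈ H12.Fi24A.H := by
  intro y hy
  unfold H12.Fi24A.H
  apply Subgroup.subset_closure
  simp only [hl, List.mem_cons, List.not_mem_nil, or_false] at hy
  rcases hy with rfl | rfl | rfl | rfl | rfl | rfl | rfl | rfl | rfl | rfl | rfl
  · exact ⟨.a, by simp, rfl⟩
  · exact ⟨.b, by simp, rfl⟩
  · exact ⟨.c, by simp, rfl⟩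
  · exact ⟨.d, by simp, rfl⟩
  · exact ⟨.e, by simp, rfl⟩
  · exact ⟨.f, by simp, rfl⟩
  · exact ⟨.g, by simp, rfl⟩
  · exact ⟨.j, by simp, rfl⟩
  · exact ⟨.h, by simp, rfl⟩
  · exact ⟨.i, by simp, rfl⟩
  · exact ⟨.l, by simp, rfl⟩

theorem fixb {y : ℕ} (hy : y ∈ hl) : φ (x y) b0 = b0 := by
  have h1 : 1 ≤ y ∧ y < 13 := by
    simp only [hl, List.mem_cons, List.not_mem_nil, or_false] at hy
    omega
  rw [φx]
  apply Fin.ext
  rw [P_val h1.1 h1.2]
  exact fixP_sound sysP fH 306935 (List.mem_singleton.2 rfl) y hy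

theorem transOn {S : Set (Fin 306936)} {c : ℕ} (hc : c < 306936)
    (h : ∀ i ∈ S, ∃ g ∈ H12.Fi24A.H, φ g ⟨c, hc⟩ = i) : ∀ i ∈ S, ∀ j ∈ S, ∃ g ∈ H12.Fi24A.H, φ g i = j := by
  intro i hi j hj
  obtain ⟨g, hg, hg2⟩ := h i hi
  obtain ⟨g', hg', hg'2⟩ := h j hj
  refine ⟨g' * g⁻¹, Subgroup.mul_mem _ hg' (Subgroup.inv_mem _ hg), ?_⟩
  have e : (φ g)⁻¹ i = ⟨c, hc⟩ := by
    rw [Equiv.Perm.inv_eq_iff_eq]; exact hg2.symm
  rw [map_mul, Equiv.Perm.mul_apply, map_inv, e]
  exact hg'2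

theorem hlys : ∀ y ∈ ([1, 3, 5, 7, 9, 12, 2, 4, 6, 10, 8] : List ℕ), (1 ≤ y ∧ y < 13) ∧ x y ∈ H12.Fi24A.H := by
  intro y hy
  have h2 : y ∈ hl := by
    simp only [hl, List.mem_cons, List.not_mem_nil, or_false] at hy ⊢
    omega
  refine ⟨?_, hlH y h2⟩
  simp only [List.mem_cons, List.not_mem_nil, or_false] at hy
  omega

theorem D : H12.Fi24A.Data φ b0 SA SB where
  hidx0 := (idx hlH).1
  hidx := (idx hlH).2
  spider := H4.Spider.spider
  hb := by
    intro g hg
    cases g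
    · exact fixb (y := 12) (by decide)
    · exact absurd rfl hg
    · exact fixb (y := 1) (by decide)
    · exact fixb (y := 2) (by decide)
    · exact fixb (y := 3) (by decide)
    · exact fixb (y := 4) (by decide)
    · exact fixb (y := 5) (by decide)
    · exact fixb (y := 6) (by decide)
    · exact fixb (y := 7) (by decide)
    · exact fixb (y := 8) (by decide)
    · exact fixb (y := 9) (by decide)
    · exact fixb (y := 10) (by decide)
  htr := by
    intro i
    obtain ⟨g, -, hg⟩ := orb (K := ⊤) rG (by norm_num) (by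
      intro y hy
      refine ⟨?_, trivial⟩
      simp only [List.mem_cons, List.not_mem_nil, or_false] at hy
      omega) (by norm_num) i.val i.2 (Nat.zero_le _) i.2
    exact ⟨g, hg⟩
  hAB := by
    intro i hi
    by_cases h : i.val < 275264
    · exact Or.inr ⟨Nat.zero_le _, h⟩
    · refine Or.inl ⟨by omega, ?_⟩
      have h2 := i.2
      have h3 : i.val ≠ 306935 := fun e => hi (Fin.ext e)
      omega
  hA := transOn (c := 275264) (by norm_num) (fun i hi => orb rA (by norm_num) hlys (by norm_num) i.val i.2 hi.1 hi.2)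
  hB := transOn (c := 275136) (by norm_num) (fun i hi => orb rB (by norm_num) hlys (by norm_num) i.val i.2 hi.1 hi.2)
  hAc := ncard_iv (by norm_num)
  hBc := ncard_iv (by norm_num)
  a0 := by
    refine ⟨⟨306912, by norm_num⟩, ⟨by norm_num, by norm_num⟩, ?_⟩
    have e : φ (γ .a) = P 1 := φx 1
    rw [e]
    apply Fin.ext
    rw [P_val (by norm_num) (by norm_num)]
    exact fixP_sound sysP fA _ (by simp) 1 (by simp)
  k0 := by
    refine ⟨⟨275136, by norm_num⟩, ⟨by norm_num, by norm_num⟩, ?_⟩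
    have e : φ (γ .b) = P 2 := φx 2
    rw [e]
    apply Fin.ext
    rw [P_val (by norm_num) (by norm_num)]
    exact fixP_sound sysP fB _ (by simp) 2 (by simp)

end Cfsg.Agent.H28.F24
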