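import Cfsg.Agent.H28_F24EC0

set_option autoImplicit false
set_option maxRecDepth 1000000

namespace Cfsg.Agent.H28.F24

open Cfsg.Agent.H8.Net Cfsg.Agent.H8.Act5 BK

theorem eC1 : eqR LL (nat_lit 306936) (nat_lit 19) pC (nat_lit 10) (nat_lit 9) = true := by decide +kernel

end Cfsg.Agent.H28.F24
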