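import Cfsg.Agent.H28_F24O
import Cfsg.Agent.H28_F24R4
import Cfsg.Agent.H28_F24T5
import Cfsg.Agent.H28_F24T6

set_option autoImplicit false
set_option maxRecDepth 1000000

namespace Cfsg.Agent.H28.F24

open Cfsg.Agent.H8.Net BK

theorem run5 : runK LL SS RR os5 t5D t5 (eqSt t6D t6) = true := by decide +kernel

end Cfsg.Agent.H28.F24
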