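import Cfsg.Agent.H28_F24O
import Cfsg.Agent.H28_F24R6
import Cfsg.Agent.H28_F24T7
import Cfsg.Agent.H28_F24T8

set_option autoImplicit false
set_option maxRecDepth 1000000

namespace Cfsg.Agent.H28.F24

open Cfsg.Agent.H8.Net BK

theorem run7 : runK LL SS RR os7 t7D t7 (eqSt t8D t8) = true := by decide +kernel

end Cfsg.Agent.H28.F24
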