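import Cfsg.Agent.H4_SpM

/-!
The spider relation in Fi₂₄.
-/

set_option autoImplicit false
set_option maxRecDepth 100000
set_option linter.constructorNameAsVariable false

namespace Cfsg.Agent.H4.Spider

open Cfsg.Agent.H8 Cfsg.Agent.H8.CE Cfsg.Agent.H8.CS Cfsg.Agent.H8.Net Cfsg.Agent.H8.Act Cfsg.Agent.H8.Cox
open Cfsg.Agent.H8.Act2 Cfsg.Agent.H4.SpR Cfsg.Spor

/-- the generators -/
noncomputable abbrev γ : Fi24.Gen → Fi24 := PresentedGroup.of

/-- names of the letters -/
def nm : ℕ → Option Fi24.Gen
  | 1 => some .l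
  | 2 => some .k
  | 3 => some .a
  | 4 => some .b
  | 5 => some .c
  | 6 => some .d
  | 7 => some .e
  | 8 => some .f
  | 9 => some .h
  | 10 => some .i
  | _ => none

/-- the letters in Fi₂₄ -/
noncomputable def xf (y : ℕ) : Fi24 := (nm y).elim 1 γ

theorem cox (p q : Fi24.Gen) : (γ p * γ q) ^ coxLabel Fi24.edges p q = 1 := by
  have h : ∀ r ∈ coxRelators Fi24.edges, FreeGroup.lift (PresentedGroup.of (rels := coxRelators Fi24.edges ∪ {r | r ∈ Fi24.extra})) r = 1 :=
    fun r hr => lift_of_rel (coxRelators Fi24.edges ∪ {r | r ∈ Fi24.extra}) r (Or.inl hr)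
  exact (cox_iff Fi24.edges _).1 h p (by cases p <;> decide) q (by cases q <;> decide)

theorem sq (p : Fi24.Gen) : γ p * γ p = 1 := by
  have h := cox p p
  have e : coxLabel Fi24.edges p p = 1 := by cases p <;> decide
  rwa [e, pow_one] at h

theorem lrel : γ .l * ((γ .a * γ .b * γ .c * γ .d * γ .e * γ .f * γ .h) ^ 9)⁻¹ = 1 := by
  have h := lift_of_rel (coxRelators Fi24.edges ∪ {r | r ∈ Fi24.extra})
    (Fi24.l * (((Fi24.a * Fi24.b * Fi24.c * Fi24.d * Fi24.e * Fi24.f * Fi24.h) ^ 9)⁻¹)) (Or.inr (by simp [Fi24.extra]))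
  simpa only [map_mul, map_pow, map_inv, FreeGroup.lift_apply_of] using h

theorem xf_ok : Ok xf where
  hic := by
    intro y hy
    have h2 : nm (il ic y) = nm y := by interval_cases y <;> decide
    unfold xf
    rw [h2]
    cases nm y with
    | none => simp
    | some p => exact eq_inv_of_mul_eq_one_left (sq p)
  h0 := rfl
  hrels := by
    intro w hw
    rw [rels, List.mem_append, List.mem_map, List.mem_singleton] at hw
    rcases hw with ⟨⟨i, j⟩, hp, rfl⟩ | rfl
    · have h1 : (prs.all fun p => match nm p.1, nm p.2 with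
        | some a, some b => coxLabel Fi24.edges a b == SpR.lab p.1 p.2
        | _, _ => false) = true := by decide +kernel
      rw [List.all_eq_true] at h1
      have h2 := h1 _ hp
      rw [ev_coxW]
      unfold xf
      cases ha : nm i with
      | none => rw [ha] at h2; exact absurd h2 (by simp)
      | some a =>
        cases hb : nm j with
        | none => rw [ha, hb] at h2; exact absurd h2 (by simp)
        | some b =>
          rw [ha, hb] at h2
          have h3 : coxLabel Fi24.edges a b = SpR.lab i j := by simpa using h2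
          have h4 := cox a b
          rw [h3] at h4
          exact h4
    · rw [ev_cons, ev_powW]
      have h1 : ev xf [3, 4, 5, 6, 7, 8, 9] = γ .a * γ .b * γ .c * γ .d * γ .e * γ .f * γ .h := by
        simp only [ev_cons, ev_nil, mul_one, mul_assoc]
        rfl
      rw [h1]
      have h2 : xf 1 = γ .l := rfl
      have h3 : γ .l = (γ .a * γ .b * γ .c * γ .d * γ .e * γ .f * γ .h) ^ 9 := mul_inv_eq_one.1 lrel
      rw [h2, ← h3]
      exact sq .l

/-- **the spider relation** in Fi₂₄ -/
theorem spider : (γ .d * γ .c * γ .b * γ .d * γ .e * γ .f * γ .d * γ .h * γ .i) ^ 10 = 1 :=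
  spider_x xf_ok

end Cfsg.Agent.H4.Spider
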