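import Cfsg.Agent.H28_F24N
import Cfsg.Agent.H28_F24R14
import Cfsg.Agent.H4_SpN
import Cfsg.Agent.H12_Fi24
import Cfsg.Agent.H8_Fi23M

set_option autoImplicit false
set_option maxRecDepth 100000
set_option linter.constructorNameAsVariable false

namespace Cfsg.Agent.H28.F24

open Cfsg.Agent.H8.CE (ev ev_nil ev_cons ev_append il)
open Cfsg.Agent.H8.Net Cfsg.Agent.H8.Act Cfsg.Agent.H8.Act5 Cfsg.Agent.H8.Cox BK Cfsg.Spor

/-- values of the generators -/
noncomputable def fP : Fi24.Gen → Equiv.Perm (Fin 306936)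
  | .a => P 1 | .b => P 2 | .c => P 3 | .d => P 4 | .e => P 5 | .f => P 6 | .g => P 7 | .j => P 8 | .h => P 9
  | .i => P 10 | .k => P 11 | .l => P 12

theorem P_out {y : ℕ} (h : ¬ (1 ≤ y ∧ y < 13)) : P y = 1 := dif_neg h

theorem P_inv (y : ℕ) : (P y)⁻¹ = P y := PP_inv Y ht y

theorem xF_eq (y : ℕ) : xF fP F24R.lm y = P y := by
  by_cases hy : y < 13
  · interval_cases y
    · rw [P_out (by omega)]; simp [xF, F24R.lm]
    · exact F24R.x1 fP
    · exact F24R.x2 fP
    · exact F24R.x3 fP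
    · exact F24R.x4 fP
    · exact F24R.x5 fP
    · exact F24R.x6 fP
    · exact F24R.x7 fP
    · exact F24R.x8 fP
    · exact F24R.x9 fP
    · exact F24R.x10 fP
    · exact F24R.x11 fP
    · exact F24R.x12 fP
  · rw [P_out (by omega)]
    unfold xF
    rw [List.getD_eq_default _ _ (by simp [F24R.lm]; omega)]
    simp

theorem hicP : ∀ y, y < 16 → xF fP F24R.lm (il F24R.ic y) = (xF fP F24R.lm y)⁻¹ := by
  intro y hy
  rw [xF_eq, xF_eq, P_inv]
  interval_cases y
  · rw [show il F24R.ic 0 = 0 by decide]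
  · rw [show il F24R.ic 1 = 1 by decide]
  · rw [show il F24R.ic 2 = 2 by decide]
  · rw [show il F24R.ic 3 = 3 by decide]
  · rw [show il F24R.ic 4 = 4 by decide]
  · rw [show il F24R.ic 5 = 5 by decide]
  · rw [show il F24R.ic 6 = 6 by decide]
  · rw [show il F24R.ic 7 = 7 by decide]
  · rw [show il F24R.ic 8 = 8 by decide]
  · rw [show il F24R.ic 9 = 9 by decide]
  · rw [show il F24R.ic 10 = 10 by decide]
  · rw [show il F24R.ic 11 = 11 by decide]
  · rw [show il F24R.ic 12 = 12 by decide]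
  · rw [show il F24R.ic 13 = 0 by decide, P_out (by omega), P_out (by omega)]
  · rw [show il F24R.ic 14 = 0 by decide, P_out (by omega), P_out (by omega)]
  · rw [show il F24R.ic 15 = 0 by decide, P_out (by omega), P_out (by omega)]

theorem hrelsP : ∀ w ∈ F24R.rels, ev (xF fP F24R.lm) w = 1 := by
  have e : xF fP F24R.lm = P := funext xF_eq
  rw [e]
  exact rels_P

abbrev RS : Set (FreeGroup Fi24.Gen) := coxRelators Fi24.edges ∪ {r | r ∈ Fi24.extra}

/-- the action on the 306936 points -/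
noncomputable def φ : Fi24 →* Equiv.Perm (Fin 306936) := PresentedGroup.toGroup (F24R.lifts fP hicP hrelsP)

/-- the letters in the presented group -/
noncomputable def x : ℕ → Fi24 := xG RS F24R.lm

theorem φx (y : ℕ) : φ (x y) = P y := by
  rw [← xF_eq]
  unfold φ x xG xF
  rfl

theorem φev : ∀ w : List ℕ, φ (ev x w) = ev P w
  | [] => by simp
  | y :: w => by rw [ev_cons, ev_cons, map_mul, φx, φev w]

theorem wds : (∀ y, y < 16 → x (il F24R.ic y) = (x y)⁻¹) ∧ ∀ w ∈ F24R.rels, ev x w = 1 := by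
  have h := F24R.words _ (lift_of_rel RS)
  rw [← xG_eq] at h
  exact h

theorem sqx (y : ℕ) (h1 : 1 ≤ y) (h2 : y < 13) : x y * x y = 1 := by
  have h := wds.1 y (by omega)
  have e : il F24R.ic y = y := by interval_cases y <;> decide
  rw [e] at h
  exact mul_eq_one_iff_eq_inv.2 h

/-- the long relators -/
def rl : List (List ℕ) := [[12] ++ powW [1, 2, 3, 4, 5, 6, 9] 9, powW [4, 3, 2, 1, 11, 12, 4, 5, 6, 7, 8, 4, 9, 10] 17,
  powW [4, 3, 2, 4, 5, 6, 4, 9, 10] 10]

theorem spx : ev x (powW [4, 3, 2, 4, 5, 6, 4, 9, 10] 10) = 1 := by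
  rw [ev_powW]
  simp only [ev_cons, ev_nil, mul_one]
  have h := H4.Spider.spider
  simp only [mul_assoc] at h
  exact h

theorem hrl : ∀ w ∈ rl, ev x w = 1 := by
  intro w hw
  simp only [rl, List.mem_cons, List.not_mem_nil, or_false] at hw
  rcases hw with rfl | rfl | rfl
  · exact wds.2 _ (by decide +kernel)
  · exact wds.2 _ (by decide +kernel)
  · exact spx

theorem hrl2 : ∀ w ∈ rl, ∀ y ∈ w, 1 ≤ y ∧ y < 13 := by
  have h : (rl.all lt13) = true := by decide +kernel
  rw [List.all_eq_true] at h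
  exact fun w hw => lt13_sound (h w hw)

theorem rules_ok : RR.all (ruleB F24R.rels rl) = true := by decide +kernel

theorem ruleOk : ∀ r ∈ RR, RuleOk LL SS 306936 x r := by
  intro r hr
  have h := rules_ok
  rw [List.all_eq_true] at h
  obtain ⟨h1, h2, h3⟩ := ruleB_sound wds.2 hrl hrl2 sqx (h r hr)
  refine ⟨h1, h2 _ (by simp), fun y hy => h2 y (by simp [hy]), h3, ?_⟩
  intro v hv
  have e1 := ev_PP Y ht _ h2 ⟨v, hv⟩
  have e2 : ev (PP Y ht) (r.2.1 :: r.2.2) = P r.1 := by
    have := φev (r.2.1 :: r.2.2)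
    rw [h3, φx] at this
    exact this.symm
  rw [e2, P_inv] at e1
  rw [← e1]
  exact PP_apply Y ht h1 _

theorem letx : Let LL SS 306936 x := ⟨sqx, ht⟩

/-- one piece of the enumeration -/
theorem next {H : Subgroup Fi24} {os : List Op} (ho : os.all (opOk RR.length) = true) {D D1 : ℕ} {M M1 : List ℕ}
    (hr : runK LL SS RR os D M (eqSt D1 M1) = true)
    (hi : Inv LL SS 306936 (nat_lit 306935) H x D M ∧ mem LL D false (nat_lit 306935)) :
    Inv LL SS 306936 (nat_lit 306935) H x D1 M1 ∧ mem LL D1 false (nat_lit 306935) := by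
  obtain ⟨D', M', h1, h2, h3⟩ := run_sound Y letx ruleOk (by norm_num) os ho D M _ hi.1 hi.2 hr
  obtain ⟨rfl, rfl⟩ := eqSt_eq h3
  exact ⟨h1, h2⟩

/-- the letters of the subgroup -/
def hl : List ℕ := [1, 2, 3, 4, 5, 6, 7, 8, 9, 10, 12]

theorem init0 : initB LL SS (nat_lit 306935) t0 hl = true := by decide +kernel

theorem init1 : Nat.beq t0D (Nat.pow (nat_lit 2) (nat_lit 306935)) = true := by decide +kernel

theorem init2b : Nat.beq (getM t0 (nat_lit 11)) (nat_lit 0) = true := by decide +kernel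

theorem init2 : getM t0 (nat_lit 11) = (nat_lit 0) := Nat.eq_of_beq_eq_true init2b

theorem init_inv2 {L : List Nt} {S n b0 : ℕ} {G : Type*} [Group G] {H : Subgroup G} {x : ℕ → G} (h : Sys L n)
    (hb0 : b0 < n) {D : ℕ} {M : List ℕ} (hD : Nat.beq D (Nat.pow (nat_lit 2) b0) = true) (hlen : M.length = 13) {l : List ℕ}
    (hi : initB L S b0 M l = true) (h0 : ∀ y, 1 ≤ y → y < 13 → y ∉ l → getM M y = 0) (hx : ∀ y ∈ l, x y ∈ H) :
    Inv L S n b0 H x D M ∧ mem L D false b0 := by
  have e : D = 2 ^ b0 := Nat.eq_of_beq_eq_true hD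
  rw [e]
  exact init_inv h hb0 hlen hi h0 hx

theorem start {H : Subgroup Fi24} (hH : ∀ y ∈ hl, x y ∈ H) :
    Inv LL SS 306936 (nat_lit 306935) H x t0D t0 ∧ mem LL t0D false (nat_lit 306935) := by
  refine init_inv2 (b0 := nat_lit 306935) Y (by norm_num) init1 rfl init0 ?_ hH
  intro y h1 h2 h3
  have : y = 11 := by
    by_contra hne
    apply h3
    simp only [hl, List.mem_cons, List.not_mem_nil, or_false]
    omega
  rw [this]
  exact init2

theorem getM_rep (X y : ℕ) (h1 : 1 ≤ y) (h2 : y < 13) : getM (0 :: List.replicate 12 X) y = X := by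
  interval_cases y <;> rfl

theorem x_top : Subgroup.closure (x '' {y | 1 ≤ y ∧ y < 13}) = ⊤ := by
  apply closure_top
  intro a
  cases a
  exacts [⟨12, by decide, rfl⟩, ⟨11, by decide, rfl⟩, ⟨1, by decide, rfl⟩, ⟨2, by decide, rfl⟩, ⟨3, by decide, rfl⟩,
    ⟨4, by decide, rfl⟩, ⟨5, by decide, rfl⟩, ⟨6, by decide, rfl⟩, ⟨7, by decide, rfl⟩, ⟨8, by decide, rfl⟩,
    ⟨9, by decide, rfl⟩, ⟨10, by decide, rfl⟩]

theorem idx {H : Subgroup Fi24} (hH : ∀ y ∈ hl, x y ∈ H) : H.index ≠ 0 ∧ H.index ≤ 306936 := by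
  have h0 := start hH
  have h1 := next (by decide +kernel) run0 h0
  have h2 := next (by decide +kernel) run1 h1
  have h3 := next (by decide +kernel) run2 h2
  have h4 := next (by decide +kernel) run3 h3
  have h5 := next (by decide +kernel) run4 h4
  have h6 := next (by decide +kernel) run5 h5
  have h7 := next (by decide +kernel) run6 h6
  have h8 := next (by decide +kernel) run7 h7
  have h9 := next (by decide +kernel) run8 h8
  have h10 := next (by decide +kernel) run9 h9
  have h11 := next (by decide +kernel) run10 h10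
  have h12 := next (by decide +kernel) run11 h11
  have h13 := next (by decide +kernel) run12 h12
  have h14 := next (by decide +kernel) run13 h13
  have h15 := next (by decide +kernel) run14 h14
  exact cover Y letx (by norm_num) h15.1 (fun y h1 h2 => getM_rep _ y h1 h2) x_top

end Cfsg.Agent.H28.F24
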