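import Cfsg.Agent.H8_Cox
import Cfsg.Prelude.Def_Spor_Fi24

set_option autoImplicit false
set_option maxRecDepth 100000
set_option linter.unusedSimpArgs false
set_option linter.unusedVariables false

namespace Cfsg.Agent.H28.F24R

open Cfsg.Agent.H8

open CE Net Act Cox Cfsg.Spor

theorem aux1 {K : Type} [Group K] {a z : K} (ha : a * a = 1) (e : a * z = 1) : a * z⁻¹ = 1 := by
  rw [eq_inv_of_mul_eq_one_right e, inv_inv]; exact ha

theorem aux2 {K : Type} [Group K] {a z : K} (ha : a * a = 1) (e : a * z⁻¹ = 1) : a * z = 1 := by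
  rw [← mul_inv_eq_one.1 e]; exact ha

/-- inverse letters -/
def ic : ℕ := 3582863703552528

/-- letters -/
def lm : List (FreeGroup Fi24.Gen) := [1, Fi24.a, Fi24.b, Fi24.c, Fi24.d, Fi24.e, Fi24.f, Fi24.g, Fi24.j, Fi24.h, Fi24.i, Fi24.k, Fi24.l]

/-- relators -/
def rels : List (List ℕ) := [
  coxW 12 11 3,
  coxW 12 1 2,
  coxW 12 2 2,
  coxW 12 3 2,
  coxW 12 4 2,
  coxW 12 5 2,
  coxW 12 6 2,
  coxW 12 7 2,
  coxW 12 8 2,
  coxW 12 9 2,
  coxW 12 10 2,
  coxW 11 1 3,
  coxW 11 2 2,
  coxW 11 3 2,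
  coxW 11 4 2,
  coxW 11 5 2,
  coxW 11 6 2,
  coxW 11 7 2,
  coxW 11 8 2,
  coxW 11 9 2,
  coxW 11 10 2,
  coxW 1 2 3,
  coxW 1 3 2,
  coxW 1 4 2,
  coxW 1 5 2,
  coxW 1 6 2,
  coxW 1 7 2,
  coxW 1 8 2,
  coxW 1 9 2,
  coxW 1 10 2,
  coxW 2 3 3,
  coxW 2 4 2,
  coxW 2 5 2,
  coxW 2 6 2,
  coxW 2 7 2,
  coxW 2 8 2,
  coxW 2 9 2,
  coxW 2 10 2,
  coxW 3 4 3,
  coxW 3 5 2,
  coxW 3 6 2,
  coxW 3 7 2,
  coxW 3 8 2,
  coxW 3 9 2,
  coxW 3 10 2,
  coxW 4 5 3,
  coxW 4 6 2,
  coxW 4 7 2,
  coxW 4 8 2,
  coxW 4 9 3,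
  coxW 4 10 2,
  coxW 5 6 3,
  coxW 5 7 2,
  coxW 5 8 2,
  coxW 5 9 2,
  coxW 5 10 2,
  coxW 6 7 3,
  coxW 6 8 2,
  coxW 6 9 2,
  coxW 6 10 2,
  coxW 7 8 3,
  coxW 7 9 2,
  coxW 7 10 2,
  coxW 8 9 2,
  coxW 8 10 2,
  coxW 9 10 3,
  [12] ++ powW [1, 2, 3, 4, 5, 6, 9] 9,
  powW [4, 3, 2, 1, 11, 12, 4, 5, 6, 7, 8, 4, 9, 10] 17]

section
variable {K : Type} [Group K] (f : Fi24.Gen → K)

theorem x1 : xF f lm 1 = f .a := by simp [xF, lm]
theorem x2 : xF f lm 2 = f .b := by simp [xF, lm]
theorem x3 : xF f lm 3 = f .c := by simp [xF, lm]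
theorem x4 : xF f lm 4 = f .d := by simp [xF, lm]
theorem x5 : xF f lm 5 = f .e := by simp [xF, lm]
theorem x6 : xF f lm 6 = f .f := by simp [xF, lm]
theorem x7 : xF f lm 7 = f .g := by simp [xF, lm]
theorem x8 : xF f lm 8 = f .j := by simp [xF, lm]
theorem x9 : xF f lm 9 = f .h := by simp [xF, lm]
theorem x10 : xF f lm 10 = f .i := by simp [xF, lm]
theorem x11 : xF f lm 11 = f .k := by simp [xF, lm]
theorem x12 : xF f lm 12 = f .l := by simp [xF, lm]

theorem words (h : ∀ r ∈ coxRelators Fi24.edges ∪ {r | r ∈ Fi24.extra}, FreeGroup.lift f r = 1) :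
    (∀ y, y < 16 → xF f lm (il ic y) = (xF f lm y)⁻¹) ∧ ∀ w ∈ rels, ev (xF f lm) w = 1 := by
  have hcox := (cox_iff Fi24.edges f).1 (fun r hr => h r (Or.inl hr))
  have sq_l : f .l * f .l = 1 := by simpa [coxLabel] using hcox .l (by decide) .l (by decide)
  have sq_k : f .k * f .k = 1 := by simpa [coxLabel] using hcox .k (by decide) .k (by decide)
  have sq_a : f .a * f .a = 1 := by simpa [coxLabel] using hcox .a (by decide) .a (by decide)
  have sq_b : f .b * f .b = 1 := by simpa [coxLabel] using hcox .b (by decide) .b (by decide)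
  have sq_c : f .c * f .c = 1 := by simpa [coxLabel] using hcox .c (by decide) .c (by decide)
  have sq_d : f .d * f .d = 1 := by simpa [coxLabel] using hcox .d (by decide) .d (by decide)
  have sq_e : f .e * f .e = 1 := by simpa [coxLabel] using hcox .e (by decide) .e (by decide)
  have sq_f : f .f * f .f = 1 := by simpa [coxLabel] using hcox .f (by decide) .f (by decide)
  have sq_g : f .g * f .g = 1 := by simpa [coxLabel] using hcox .g (by decide) .g (by decide)
  have sq_j : f .j * f .j = 1 := by simpa [coxLabel] using hcox .j (by decide) .j (by decide)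
  have sq_h : f .h * f .h = 1 := by simpa [coxLabel] using hcox .h (by decide) .h (by decide)
  have sq_i : f .i * f .i = 1 := by simpa [coxLabel] using hcox .i (by decide) .i (by decide)
  have pr_l_k : (f .l * f .k) ^ 3 = 1 := hcox .l (by decide) .k (by decide)
  have pr_l_a : (f .l * f .a) ^ 2 = 1 := hcox .l (by decide) .a (by decide)
  have pr_l_b : (f .l * f .b) ^ 2 = 1 := hcox .l (by decide) .b (by decide)
  have pr_l_c : (f .l * f .c) ^ 2 = 1 := hcox .l (by decide) .c (by decide)
  have pr_l_d : (f .l * f .d) ^ 2 = 1 := hcox .l (by decide) .d (by decide)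
  have pr_l_e : (f .l * f .e) ^ 2 = 1 := hcox .l (by decide) .e (by decide)
  have pr_l_f : (f .l * f .f) ^ 2 = 1 := hcox .l (by decide) .f (by decide)
  have pr_l_g : (f .l * f .g) ^ 2 = 1 := hcox .l (by decide) .g (by decide)
  have pr_l_j : (f .l * f .j) ^ 2 = 1 := hcox .l (by decide) .j (by decide)
  have pr_l_h : (f .l * f .h) ^ 2 = 1 := hcox .l (by decide) .h (by decide)
  have pr_l_i : (f .l * f .i) ^ 2 = 1 := hcox .l (by decide) .i (by decide)
  have pr_k_a : (f .k * f .a) ^ 3 = 1 := hcox .k (by decide) .a (by decide)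
  have pr_k_b : (f .k * f .b) ^ 2 = 1 := hcox .k (by decide) .b (by decide)
  have pr_k_c : (f .k * f .c) ^ 2 = 1 := hcox .k (by decide) .c (by decide)
  have pr_k_d : (f .k * f .d) ^ 2 = 1 := hcox .k (by decide) .d (by decide)
  have pr_k_e : (f .k * f .e) ^ 2 = 1 := hcox .k (by decide) .e (by decide)
  have pr_k_f : (f .k * f .f) ^ 2 = 1 := hcox .k (by decide) .f (by decide)
  have pr_k_g : (f .k * f .g) ^ 2 = 1 := hcox .k (by decide) .g (by decide)
  have pr_k_j : (f .k * f .j) ^ 2 = 1 := hcox .k (by decide) .j (by decide)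
  have pr_k_h : (f .k * f .h) ^ 2 = 1 := hcox .k (by decide) .h (by decide)
  have pr_k_i : (f .k * f .i) ^ 2 = 1 := hcox .k (by decide) .i (by decide)
  have pr_a_b : (f .a * f .b) ^ 3 = 1 := hcox .a (by decide) .b (by decide)
  have pr_a_c : (f .a * f .c) ^ 2 = 1 := hcox .a (by decide) .c (by decide)
  have pr_a_d : (f .a * f .d) ^ 2 = 1 := hcox .a (by decide) .d (by decide)
  have pr_a_e : (f .a * f .e) ^ 2 = 1 := hcox .a (by decide) .e (by decide)
  have pr_a_f : (f .a * f .f) ^ 2 = 1 := hcox .a (by decide) .f (by decide)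
  have pr_a_g : (f .a * f .g) ^ 2 = 1 := hcox .a (by decide) .g (by decide)
  have pr_a_j : (f .a * f .j) ^ 2 = 1 := hcox .a (by decide) .j (by decide)
  have pr_a_h : (f .a * f .h) ^ 2 = 1 := hcox .a (by decide) .h (by decide)
  have pr_a_i : (f .a * f .i) ^ 2 = 1 := hcox .a (by decide) .i (by decide)
  have pr_b_c : (f .b * f .c) ^ 3 = 1 := hcox .b (by decide) .c (by decide)
  have pr_b_d : (f .b * f .d) ^ 2 = 1 := hcox .b (by decide) .d (by decide)
  have pr_b_e : (f .b * f .e) ^ 2 = 1 := hcox .b (by decide) .e (by decide)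
  have pr_b_f : (f .b * f .f) ^ 2 = 1 := hcox .b (by decide) .f (by decide)
  have pr_b_g : (f .b * f .g) ^ 2 = 1 := hcox .b (by decide) .g (by decide)
  have pr_b_j : (f .b * f .j) ^ 2 = 1 := hcox .b (by decide) .j (by decide)
  have pr_b_h : (f .b * f .h) ^ 2 = 1 := hcox .b (by decide) .h (by decide)
  have pr_b_i : (f .b * f .i) ^ 2 = 1 := hcox .b (by decide) .i (by decide)
  have pr_c_d : (f .c * f .d) ^ 3 = 1 := hcox .c (by decide) .d (by decide)
  have pr_c_e : (f .c * f .e) ^ 2 = 1 := hcox .c (by decide) .e (by decide)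
  have pr_c_f : (f .c * f .f) ^ 2 = 1 := hcox .c (by decide) .f (by decide)
  have pr_c_g : (f .c * f .g) ^ 2 = 1 := hcox .c (by decide) .g (by decide)
  have pr_c_j : (f .c * f .j) ^ 2 = 1 := hcox .c (by decide) .j (by decide)
  have pr_c_h : (f .c * f .h) ^ 2 = 1 := hcox .c (by decide) .h (by decide)
  have pr_c_i : (f .c * f .i) ^ 2 = 1 := hcox .c (by decide) .i (by decide)
  have pr_d_e : (f .d * f .e) ^ 3 = 1 := hcox .d (by decide) .e (by decide)
  have pr_d_f : (f .d * f .f) ^ 2 = 1 := hcox .d (by decide) .f (by decide)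
  have pr_d_g : (f .d * f .g) ^ 2 = 1 := hcox .d (by decide) .g (by decide)
  have pr_d_j : (f .d * f .j) ^ 2 = 1 := hcox .d (by decide) .j (by decide)
  have pr_d_h : (f .d * f .h) ^ 3 = 1 := hcox .d (by decide) .h (by decide)
  have pr_d_i : (f .d * f .i) ^ 2 = 1 := hcox .d (by decide) .i (by decide)
  have pr_e_f : (f .e * f .f) ^ 3 = 1 := hcox .e (by decide) .f (by decide)
  have pr_e_g : (f .e * f .g) ^ 2 = 1 := hcox .e (by decide) .g (by decide)
  have pr_e_j : (f .e * f .j) ^ 2 = 1 := hcox .e (by decide) .j (by decide)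
  have pr_e_h : (f .e * f .h) ^ 2 = 1 := hcox .e (by decide) .h (by decide)
  have pr_e_i : (f .e * f .i) ^ 2 = 1 := hcox .e (by decide) .i (by decide)
  have pr_f_g : (f .f * f .g) ^ 3 = 1 := hcox .f (by decide) .g (by decide)
  have pr_f_j : (f .f * f .j) ^ 2 = 1 := hcox .f (by decide) .j (by decide)
  have pr_f_h : (f .f * f .h) ^ 2 = 1 := hcox .f (by decide) .h (by decide)
  have pr_f_i : (f .f * f .i) ^ 2 = 1 := hcox .f (by decide) .i (by decide)
  have pr_g_j : (f .g * f .j) ^ 3 = 1 := hcox .g (by decide) .j (by decide)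
  have pr_g_h : (f .g * f .h) ^ 2 = 1 := hcox .g (by decide) .h (by decide)
  have pr_g_i : (f .g * f .i) ^ 2 = 1 := hcox .g (by decide) .i (by decide)
  have pr_j_h : (f .j * f .h) ^ 2 = 1 := hcox .j (by decide) .h (by decide)
  have pr_j_i : (f .j * f .i) ^ 2 = 1 := hcox .j (by decide) .i (by decide)
  have pr_h_i : (f .h * f .i) ^ 3 = 1 := hcox .h (by decide) .i (by decide)
  have e0 := h (Fi24.l * (((Fi24.a * Fi24.b * Fi24.c * Fi24.d * Fi24.e * Fi24.f * Fi24.h) ^ 9)⁻¹)) (Or.inr (by simp [Fi24.extra]))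
  have e1 := h ((Fi24.d * Fi24.c * Fi24.b * Fi24.a * Fi24.k * Fi24.l * Fi24.d * Fi24.e * Fi24.f * Fi24.g * Fi24.j * Fi24.d * Fi24.h * Fi24.i) ^ 17) (Or.inr (by simp [Fi24.extra]))
  simp only [map_mul, map_pow, map_inv, FreeGroup.lift_apply_of] at e0 e1
  constructor
  · intro y hy
    interval_cases y
    · rw [show il ic 0 = 0 by decide]; simp [xF, lm]
    · rw [show il ic 1 = 1 by decide, x1]; exact eq_inv_of_mul_eq_one_left sq_a
    · rw [show il ic 2 = 2 by decide, x2]; exact eq_inv_of_mul_eq_one_left sq_b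
    · rw [show il ic 3 = 3 by decide, x3]; exact eq_inv_of_mul_eq_one_left sq_c
    · rw [show il ic 4 = 4 by decide, x4]; exact eq_inv_of_mul_eq_one_left sq_d
    · rw [show il ic 5 = 5 by decide, x5]; exact eq_inv_of_mul_eq_one_left sq_e
    · rw [show il ic 6 = 6 by decide, x6]; exact eq_inv_of_mul_eq_one_left sq_f
    · rw [show il ic 7 = 7 by decide, x7]; exact eq_inv_of_mul_eq_one_left sq_g
    · rw [show il ic 8 = 8 by decide, x8]; exact eq_inv_of_mul_eq_one_left sq_j
    · rw [show il ic 9 = 9 by decide, x9]; exact eq_inv_of_mul_eq_one_left sq_h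
    · rw [show il ic 10 = 10 by decide, x10]; exact eq_inv_of_mul_eq_one_left sq_i
    · rw [show il ic 11 = 11 by decide, x11]; exact eq_inv_of_mul_eq_one_left sq_k
    · rw [show il ic 12 = 12 by decide, x12]; exact eq_inv_of_mul_eq_one_left sq_l
    · rw [show il ic 13 = 0 by decide]; simp [xF, lm]
    · rw [show il ic 14 = 0 by decide]; simp [xF, lm]
    · rw [show il ic 15 = 0 by decide]; simp [xF, lm]
  · intro w hw
    simp only [rels, List.mem_cons, List.not_mem_nil, or_false] at hw
    rcases hw with rfl | rfl | rfl | rfl | rfl | rfl | rfl | rfl | rfl | rfl | rfl | rfl | rfl | rfl | rfl | rfl | rfl | rfl | rfl | rfl | rfl | rfl | rfl | rfl | rfl | rfl | rfl | rfl | rfl | rfl | rfl | rfl | rfl | rfl | rfl | rfl | rfl | rfl | rfl | rfl | rfl | rfl | rfl | rfl | rfl | rfl | rfl | rfl | rfl | rfl | rfl | rfl | rfl | rfl | rfl | rfl | rfl | rfl | rfl | rfl | rfl | rfl | rfl | rfl | rfl | rfl | rfl | rfl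
    · rw [ev_coxW, x12, x11]; exact pr_l_k
    · rw [ev_coxW, x12, x1]; exact pr_l_a
    · rw [ev_coxW, x12, x2]; exact pr_l_b
    · rw [ev_coxW, x12, x3]; exact pr_l_c
    · rw [ev_coxW, x12, x4]; exact pr_l_d
    · rw [ev_coxW, x12, x5]; exact pr_l_e
    · rw [ev_coxW, x12, x6]; exact pr_l_f
    · rw [ev_coxW, x12, x7]; exact pr_l_g
    · rw [ev_coxW, x12, x8]; exact pr_l_j
    · rw [ev_coxW, x12, x9]; exact pr_l_h
    · rw [ev_coxW, x12, x10]; exact pr_l_i
    · rw [ev_coxW, x11, x1]; exact pr_k_a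
    · rw [ev_coxW, x11, x2]; exact pr_k_b
    · rw [ev_coxW, x11, x3]; exact pr_k_c
    · rw [ev_coxW, x11, x4]; exact pr_k_d
    · rw [ev_coxW, x11, x5]; exact pr_k_e
    · rw [ev_coxW, x11, x6]; exact pr_k_f
    · rw [ev_coxW, x11, x7]; exact pr_k_g
    · rw [ev_coxW, x11, x8]; exact pr_k_j
    · rw [ev_coxW, x11, x9]; exact pr_k_h
    · rw [ev_coxW, x11, x10]; exact pr_k_i
    · rw [ev_coxW, x1, x2]; exact pr_a_b
    · rw [ev_coxW, x1, x3]; exact pr_a_c
    · rw [ev_coxW, x1, x4]; exact pr_a_d
    · rw [ev_coxW, x1, x5]; exact pr_a_e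
    · rw [ev_coxW, x1, x6]; exact pr_a_f
    · rw [ev_coxW, x1, x7]; exact pr_a_g
    · rw [ev_coxW, x1, x8]; exact pr_a_j
    · rw [ev_coxW, x1, x9]; exact pr_a_h
    · rw [ev_coxW, x1, x10]; exact pr_a_i
    · rw [ev_coxW, x2, x3]; exact pr_b_c
    · rw [ev_coxW, x2, x4]; exact pr_b_d
    · rw [ev_coxW, x2, x5]; exact pr_b_e
    · rw [ev_coxW, x2, x6]; exact pr_b_f
    · rw [ev_coxW, x2, x7]; exact pr_b_g
    · rw [ev_coxW, x2, x8]; exact pr_b_j
    · rw [ev_coxW, x2, x9]; exact pr_b_h
    · rw [ev_coxW, x2, x10]; exact pr_b_i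
    · rw [ev_coxW, x3, x4]; exact pr_c_d
    · rw [ev_coxW, x3, x5]; exact pr_c_e
    · rw [ev_coxW, x3, x6]; exact pr_c_f
    · rw [ev_coxW, x3, x7]; exact pr_c_g
    · rw [ev_coxW, x3, x8]; exact pr_c_j
    · rw [ev_coxW, x3, x9]; exact pr_c_h
    · rw [ev_coxW, x3, x10]; exact pr_c_i
    · rw [ev_coxW, x4, x5]; exact pr_d_e
    · rw [ev_coxW, x4, x6]; exact pr_d_f
    · rw [ev_coxW, x4, x7]; exact pr_d_g
    · rw [ev_coxW, x4, x8]; exact pr_d_j
    · rw [ev_coxW, x4, x9]; exact pr_d_h
    · rw [ev_coxW, x4, x10]; exact pr_d_i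
    · rw [ev_coxW, x5, x6]; exact pr_e_f
    · rw [ev_coxW, x5, x7]; exact pr_e_g
    · rw [ev_coxW, x5, x8]; exact pr_e_j
    · rw [ev_coxW, x5, x9]; exact pr_e_h
    · rw [ev_coxW, x5, x10]; exact pr_e_i
    · rw [ev_coxW, x6, x7]; exact pr_f_g
    · rw [ev_coxW, x6, x8]; exact pr_f_j
    · rw [ev_coxW, x6, x9]; exact pr_f_h
    · rw [ev_coxW, x6, x10]; exact pr_f_i
    · rw [ev_coxW, x7, x8]; exact pr_g_j
    · rw [ev_coxW, x7, x9]; exact pr_g_h
    · rw [ev_coxW, x7, x10]; exact pr_g_i
    · rw [ev_coxW, x8, x9]; exact pr_j_h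
    · rw [ev_coxW, x8, x10]; exact pr_j_i
    · rw [ev_coxW, x9, x10]; exact pr_h_i
    · simp only [ev_powW, ev_append, ev_cons, ev_nil, mul_one, x1, x2, x3, x4, x5, x6, x7, x8, x9, x10, x11, x12]
      exact aux2 sq_l (by simpa only [mul_assoc] using e0)
    · simp only [ev_powW, ev_append, ev_cons, ev_nil, mul_one, x1, x2, x3, x4, x5, x6, x7, x8, x9, x10, x11, x12]
      simpa only [mul_assoc] using e1

theorem lifts (hic : ∀ y, y < 16 → xF f lm (il ic y) = (xF f lm y)⁻¹)
    (hrels : ∀ w ∈ rels, ev (xF f lm) w = 1) :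
    ∀ r ∈ coxRelators Fi24.edges ∪ {r | r ∈ Fi24.extra}, FreeGroup.lift f r = 1 := by
  have sq_l : f .l * f .l = 1 := by
    have := hic 12 (by decide)
    rw [show il ic 12 = 12 by decide, x12] at this
    exact mul_eq_one_iff_eq_inv.2 this
  have sq_k : f .k * f .k = 1 := by
    have := hic 11 (by decide)
    rw [show il ic 11 = 11 by decide, x11] at this
    exact mul_eq_one_iff_eq_inv.2 this
  have sq_a : f .a * f .a = 1 := by
    have := hic 1 (by decide)
    rw [show il ic 1 = 1 by decide, x1] at this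
    exact mul_eq_one_iff_eq_inv.2 this
  have sq_b : f .b * f .b = 1 := by
    have := hic 2 (by decide)
    rw [show il ic 2 = 2 by decide, x2] at this
    exact mul_eq_one_iff_eq_inv.2 this
  have sq_c : f .c * f .c = 1 := by
    have := hic 3 (by decide)
    rw [show il ic 3 = 3 by decide, x3] at this
    exact mul_eq_one_iff_eq_inv.2 this
  have sq_d : f .d * f .d = 1 := by
    have := hic 4 (by decide)
    rw [show il ic 4 = 4 by decide, x4] at this
    exact mul_eq_one_iff_eq_inv.2 this
  have sq_e : f .e * f .e = 1 := by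
    have := hic 5 (by decide)
    rw [show il ic 5 = 5 by decide, x5] at this
    exact mul_eq_one_iff_eq_inv.2 this
  have sq_f : f .f * f .f = 1 := by
    have := hic 6 (by decide)
    rw [show il ic 6 = 6 by decide, x6] at this
    exact mul_eq_one_iff_eq_inv.2 this
  have sq_g : f .g * f .g = 1 := by
    have := hic 7 (by decide)
    rw [show il ic 7 = 7 by decide, x7] at this
    exact mul_eq_one_iff_eq_inv.2 this
  have sq_j : f .j * f .j = 1 := by
    have := hic 8 (by decide)
    rw [show il ic 8 = 8 by decide, x8] at this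
    exact mul_eq_one_iff_eq_inv.2 this
  have sq_h : f .h * f .h = 1 := by
    have := hic 9 (by decide)
    rw [show il ic 9 = 9 by decide, x9] at this
    exact mul_eq_one_iff_eq_inv.2 this
  have sq_i : f .i * f .i = 1 := by
    have := hic 10 (by decide)
    rw [show il ic 10 = 10 by decide, x10] at this
    exact mul_eq_one_iff_eq_inv.2 this
  rintro r (hr | hr)
  · refine (cox_iff Fi24.edges f).2 ?_ r hr
    intro p hp q hq
    have y1 := x1 f
    have y2 := x2 f
    have y3 := x3 f
    have y4 := x4 f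
    have y5 := x5 f
    have y6 := x6 f
    have y7 := x7 f
    have y8 := x8 f
    have y9 := x9 f
    have y10 := x10 f
    have y11 := x11 f
    have y12 := x12 f
    cases p <;> cases q
    · rw [← y12]; exact pairOk_sound hrels (by rw [y12]; exact sq_l) (by decide +kernel)
    · rw [← y12, ← y11]; exact pairOk_sound hrels (by rw [y12]; exact sq_l) (by decide +kernel)
    · rw [← y12, ← y1]; exact pairOk_sound hrels (by rw [y12]; exact sq_l) (by decide +kernel)
    · rw [← y12, ← y2]; exact pairOk_sound hrels (by rw [y12]; exact sq_l) (by decide +kernel)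
    · rw [← y12, ← y3]; exact pairOk_sound hrels (by rw [y12]; exact sq_l) (by decide +kernel)
    · rw [← y12, ← y4]; exact pairOk_sound hrels (by rw [y12]; exact sq_l) (by decide +kernel)
    · rw [← y12, ← y5]; exact pairOk_sound hrels (by rw [y12]; exact sq_l) (by decide +kernel)
    · rw [← y12, ← y6]; exact pairOk_sound hrels (by rw [y12]; exact sq_l) (by decide +kernel)
    · rw [← y12, ← y7]; exact pairOk_sound hrels (by rw [y12]; exact sq_l) (by decide +kernel)
    · rw [← y12, ← y8]; exact pairOk_sound hrels (by rw [y12]; exact sq_l) (by decide +kernel)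
    · rw [← y12, ← y9]; exact pairOk_sound hrels (by rw [y12]; exact sq_l) (by decide +kernel)
    · rw [← y12, ← y10]; exact pairOk_sound hrels (by rw [y12]; exact sq_l) (by decide +kernel)
    · rw [← y11, ← y12]; exact pairOk_sound hrels (by rw [y11]; exact sq_k) (by decide +kernel)
    · rw [← y11]; exact pairOk_sound hrels (by rw [y11]; exact sq_k) (by decide +kernel)
    · rw [← y11, ← y1]; exact pairOk_sound hrels (by rw [y11]; exact sq_k) (by decide +kernel)
    · rw [← y11, ← y2]; exact pairOk_sound hrels (by rw [y11]; exact sq_k) (by decide +kernel)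
    · rw [← y11, ← y3]; exact pairOk_sound hrels (by rw [y11]; exact sq_k) (by decide +kernel)
    · rw [← y11, ← y4]; exact pairOk_sound hrels (by rw [y11]; exact sq_k) (by decide +kernel)
    · rw [← y11, ← y5]; exact pairOk_sound hrels (by rw [y11]; exact sq_k) (by decide +kernel)
    · rw [← y11, ← y6]; exact pairOk_sound hrels (by rw [y11]; exact sq_k) (by decide +kernel)
    · rw [← y11, ← y7]; exact pairOk_sound hrels (by rw [y11]; exact sq_k) (by decide +kernel)
    · rw [← y11, ← y8]; exact pairOk_sound hrels (by rw [y11]; exact sq_k) (by decide +kernel)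
    · rw [← y11, ← y9]; exact pairOk_sound hrels (by rw [y11]; exact sq_k) (by decide +kernel)
    · rw [← y11, ← y10]; exact pairOk_sound hrels (by rw [y11]; exact sq_k) (by decide +kernel)
    · rw [← y1, ← y12]; exact pairOk_sound hrels (by rw [y1]; exact sq_a) (by decide +kernel)
    · rw [← y1, ← y11]; exact pairOk_sound hrels (by rw [y1]; exact sq_a) (by decide +kernel)
    · rw [← y1]; exact pairOk_sound hrels (by rw [y1]; exact sq_a) (by decide +kernel)
    · rw [← y1, ← y2]; exact pairOk_sound hrels (by rw [y1]; exact sq_a) (by decide +kernel)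
    · rw [← y1, ← y3]; exact pairOk_sound hrels (by rw [y1]; exact sq_a) (by decide +kernel)
    · rw [← y1, ← y4]; exact pairOk_sound hrels (by rw [y1]; exact sq_a) (by decide +kernel)
    · rw [← y1, ← y5]; exact pairOk_sound hrels (by rw [y1]; exact sq_a) (by decide +kernel)
    · rw [← y1, ← y6]; exact pairOk_sound hrels (by rw [y1]; exact sq_a) (by decide +kernel)
    · rw [← y1, ← y7]; exact pairOk_sound hrels (by rw [y1]; exact sq_a) (by decide +kernel)
    · rw [← y1, ← y8]; exact pairOk_sound hrels (by rw [y1]; exact sq_a) (by decide +kernel)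
    · rw [← y1, ← y9]; exact pairOk_sound hrels (by rw [y1]; exact sq_a) (by decide +kernel)
    · rw [← y1, ← y10]; exact pairOk_sound hrels (by rw [y1]; exact sq_a) (by decide +kernel)
    · rw [← y2, ← y12]; exact pairOk_sound hrels (by rw [y2]; exact sq_b) (by decide +kernel)
    · rw [← y2, ← y11]; exact pairOk_sound hrels (by rw [y2]; exact sq_b) (by decide +kernel)
    · rw [← y2, ← y1]; exact pairOk_sound hrels (by rw [y2]; exact sq_b) (by decide +kernel)
    · rw [← y2]; exact pairOk_sound hrels (by rw [y2]; exact sq_b) (by decide +kernel)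
    · rw [← y2, ← y3]; exact pairOk_sound hrels (by rw [y2]; exact sq_b) (by decide +kernel)
    · rw [← y2, ← y4]; exact pairOk_sound hrels (by rw [y2]; exact sq_b) (by decide +kernel)
    · rw [← y2, ← y5]; exact pairOk_sound hrels (by rw [y2]; exact sq_b) (by decide +kernel)
    · rw [← y2, ← y6]; exact pairOk_sound hrels (by rw [y2]; exact sq_b) (by decide +kernel)
    · rw [← y2, ← y7]; exact pairOk_sound hrels (by rw [y2]; exact sq_b) (by decide +kernel)
    · rw [← y2, ← y8]; exact pairOk_sound hrels (by rw [y2]; exact sq_b) (by decide +kernel)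
    · rw [← y2, ← y9]; exact pairOk_sound hrels (by rw [y2]; exact sq_b) (by decide +kernel)
    · rw [← y2, ← y10]; exact pairOk_sound hrels (by rw [y2]; exact sq_b) (by decide +kernel)
    · rw [← y3, ← y12]; exact pairOk_sound hrels (by rw [y3]; exact sq_c) (by decide +kernel)
    · rw [← y3, ← y11]; exact pairOk_sound hrels (by rw [y3]; exact sq_c) (by decide +kernel)
    · rw [← y3, ← y1]; exact pairOk_sound hrels (by rw [y3]; exact sq_c) (by decide +kernel)
    · rw [← y3, ← y2]; exact pairOk_sound hrels (by rw [y3]; exact sq_c) (by decide +kernel)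
    · rw [← y3]; exact pairOk_sound hrels (by rw [y3]; exact sq_c) (by decide +kernel)
    · rw [← y3, ← y4]; exact pairOk_sound hrels (by rw [y3]; exact sq_c) (by decide +kernel)
    · rw [← y3, ← y5]; exact pairOk_sound hrels (by rw [y3]; exact sq_c) (by decide +kernel)
    · rw [← y3, ← y6]; exact pairOk_sound hrels (by rw [y3]; exact sq_c) (by decide +kernel)
    · rw [← y3, ← y7]; exact pairOk_sound hrels (by rw [y3]; exact sq_c) (by decide +kernel)
    · rw [← y3, ← y8]; exact pairOk_sound hrels (by rw [y3]; exact sq_c) (by decide +kernel)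
    · rw [← y3, ← y9]; exact pairOk_sound hrels (by rw [y3]; exact sq_c) (by decide +kernel)
    · rw [← y3, ← y10]; exact pairOk_sound hrels (by rw [y3]; exact sq_c) (by decide +kernel)
    · rw [← y4, ← y12]; exact pairOk_sound hrels (by rw [y4]; exact sq_d) (by decide +kernel)
    · rw [← y4, ← y11]; exact pairOk_sound hrels (by rw [y4]; exact sq_d) (by decide +kernel)
    · rw [← y4, ← y1]; exact pairOk_sound hrels (by rw [y4]; exact sq_d) (by decide +kernel)
    · rw [← y4, ← y2]; exact pairOk_sound hrels (by rw [y4]; exact sq_d) (by decide +kernel)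
    · rw [← y4, ← y3]; exact pairOk_sound hrels (by rw [y4]; exact sq_d) (by decide +kernel)
    · rw [← y4]; exact pairOk_sound hrels (by rw [y4]; exact sq_d) (by decide +kernel)
    · rw [← y4, ← y5]; exact pairOk_sound hrels (by rw [y4]; exact sq_d) (by decide +kernel)
    · rw [← y4, ← y6]; exact pairOk_sound hrels (by rw [y4]; exact sq_d) (by decide +kernel)
    · rw [← y4, ← y7]; exact pairOk_sound hrels (by rw [y4]; exact sq_d) (by decide +kernel)
    · rw [← y4, ← y8]; exact pairOk_sound hrels (by rw [y4]; exact sq_d) (by decide +kernel)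
    · rw [← y4, ← y9]; exact pairOk_sound hrels (by rw [y4]; exact sq_d) (by decide +kernel)
    · rw [← y4, ← y10]; exact pairOk_sound hrels (by rw [y4]; exact sq_d) (by decide +kernel)
    · rw [← y5, ← y12]; exact pairOk_sound hrels (by rw [y5]; exact sq_e) (by decide +kernel)
    · rw [← y5, ← y11]; exact pairOk_sound hrels (by rw [y5]; exact sq_e) (by decide +kernel)
    · rw [← y5, ← y1]; exact pairOk_sound hrels (by rw [y5]; exact sq_e) (by decide +kernel)
    · rw [← y5, ← y2]; exact pairOk_sound hrels (by rw [y5]; exact sq_e) (by decide +kernel)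
    · rw [← y5, ← y3]; exact pairOk_sound hrels (by rw [y5]; exact sq_e) (by decide +kernel)
    · rw [← y5, ← y4]; exact pairOk_sound hrels (by rw [y5]; exact sq_e) (by decide +kernel)
    · rw [← y5]; exact pairOk_sound hrels (by rw [y5]; exact sq_e) (by decide +kernel)
    · rw [← y5, ← y6]; exact pairOk_sound hrels (by rw [y5]; exact sq_e) (by decide +kernel)
    · rw [← y5, ← y7]; exact pairOk_sound hrels (by rw [y5]; exact sq_e) (by decide +kernel)
    · rw [← y5, ← y8]; exact pairOk_sound hrels (by rw [y5]; exact sq_e) (by decide +kernel)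
    · rw [← y5, ← y9]; exact pairOk_sound hrels (by rw [y5]; exact sq_e) (by decide +kernel)
    · rw [← y5, ← y10]; exact pairOk_sound hrels (by rw [y5]; exact sq_e) (by decide +kernel)
    · rw [← y6, ← y12]; exact pairOk_sound hrels (by rw [y6]; exact sq_f) (by decide +kernel)
    · rw [← y6, ← y11]; exact pairOk_sound hrels (by rw [y6]; exact sq_f) (by decide +kernel)
    · rw [← y6, ← y1]; exact pairOk_sound hrels (by rw [y6]; exact sq_f) (by decide +kernel)
    · rw [← y6, ← y2]; exact pairOk_sound hrels (by rw [y6]; exact sq_f) (by decide +kernel)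
    · rw [← y6, ← y3]; exact pairOk_sound hrels (by rw [y6]; exact sq_f) (by decide +kernel)
    · rw [← y6, ← y4]; exact pairOk_sound hrels (by rw [y6]; exact sq_f) (by decide +kernel)
    · rw [← y6, ← y5]; exact pairOk_sound hrels (by rw [y6]; exact sq_f) (by decide +kernel)
    · rw [← y6]; exact pairOk_sound hrels (by rw [y6]; exact sq_f) (by decide +kernel)
    · rw [← y6, ← y7]; exact pairOk_sound hrels (by rw [y6]; exact sq_f) (by decide +kernel)
    · rw [← y6, ← y8]; exact pairOk_sound hrels (by rw [y6]; exact sq_f) (by decide +kernel)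
    · rw [← y6, ← y9]; exact pairOk_sound hrels (by rw [y6]; exact sq_f) (by decide +kernel)
    · rw [← y6, ← y10]; exact pairOk_sound hrels (by rw [y6]; exact sq_f) (by decide +kernel)
    · rw [← y7, ← y12]; exact pairOk_sound hrels (by rw [y7]; exact sq_g) (by decide +kernel)
    · rw [← y7, ← y11]; exact pairOk_sound hrels (by rw [y7]; exact sq_g) (by decide +kernel)
    · rw [← y7, ← y1]; exact pairOk_sound hrels (by rw [y7]; exact sq_g) (by decide +kernel)
    · rw [← y7, ← y2]; exact pairOk_sound hrels (by rw [y7]; exact sq_g) (by decide +kernel)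
    · rw [← y7, ← y3]; exact pairOk_sound hrels (by rw [y7]; exact sq_g) (by decide +kernel)
    · rw [← y7, ← y4]; exact pairOk_sound hrels (by rw [y7]; exact sq_g) (by decide +kernel)
    · rw [← y7, ← y5]; exact pairOk_sound hrels (by rw [y7]; exact sq_g) (by decide +kernel)
    · rw [← y7, ← y6]; exact pairOk_sound hrels (by rw [y7]; exact sq_g) (by decide +kernel)
    · rw [← y7]; exact pairOk_sound hrels (by rw [y7]; exact sq_g) (by decide +kernel)
    · rw [← y7, ← y8]; exact pairOk_sound hrels (by rw [y7]; exact sq_g) (by decide +kernel)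
    · rw [← y7, ← y9]; exact pairOk_sound hrels (by rw [y7]; exact sq_g) (by decide +kernel)
    · rw [← y7, ← y10]; exact pairOk_sound hrels (by rw [y7]; exact sq_g) (by decide +kernel)
    · rw [← y8, ← y12]; exact pairOk_sound hrels (by rw [y8]; exact sq_j) (by decide +kernel)
    · rw [← y8, ← y11]; exact pairOk_sound hrels (by rw [y8]; exact sq_j) (by decide +kernel)
    · rw [← y8, ← y1]; exact pairOk_sound hrels (by rw [y8]; exact sq_j) (by decide +kernel)
    · rw [← y8, ← y2]; exact pairOk_sound hrels (by rw [y8]; exact sq_j) (by decide +kernel)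
    · rw [← y8, ← y3]; exact pairOk_sound hrels (by rw [y8]; exact sq_j) (by decide +kernel)
    · rw [← y8, ← y4]; exact pairOk_sound hrels (by rw [y8]; exact sq_j) (by decide +kernel)
    · rw [← y8, ← y5]; exact pairOk_sound hrels (by rw [y8]; exact sq_j) (by decide +kernel)
    · rw [← y8, ← y6]; exact pairOk_sound hrels (by rw [y8]; exact sq_j) (by decide +kernel)
    · rw [← y8, ← y7]; exact pairOk_sound hrels (by rw [y8]; exact sq_j) (by decide +kernel)
    · rw [← y8]; exact pairOk_sound hrels (by rw [y8]; exact sq_j) (by decide +kernel)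
    · rw [← y8, ← y9]; exact pairOk_sound hrels (by rw [y8]; exact sq_j) (by decide +kernel)
    · rw [← y8, ← y10]; exact pairOk_sound hrels (by rw [y8]; exact sq_j) (by decide +kernel)
    · rw [← y9, ← y12]; exact pairOk_sound hrels (by rw [y9]; exact sq_h) (by decide +kernel)
    · rw [← y9, ← y11]; exact pairOk_sound hrels (by rw [y9]; exact sq_h) (by decide +kernel)
    · rw [← y9, ← y1]; exact pairOk_sound hrels (by rw [y9]; exact sq_h) (by decide +kernel)
    · rw [← y9, ← y2]; exact pairOk_sound hrels (by rw [y9]; exact sq_h) (by decide +kernel)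
    · rw [← y9, ← y3]; exact pairOk_sound hrels (by rw [y9]; exact sq_h) (by decide +kernel)
    · rw [← y9, ← y4]; exact pairOk_sound hrels (by rw [y9]; exact sq_h) (by decide +kernel)
    · rw [← y9, ← y5]; exact pairOk_sound hrels (by rw [y9]; exact sq_h) (by decide +kernel)
    · rw [← y9, ← y6]; exact pairOk_sound hrels (by rw [y9]; exact sq_h) (by decide +kernel)
    · rw [← y9, ← y7]; exact pairOk_sound hrels (by rw [y9]; exact sq_h) (by decide +kernel)
    · rw [← y9, ← y8]; exact pairOk_sound hrels (by rw [y9]; exact sq_h) (by decide +kernel)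
    · rw [← y9]; exact pairOk_sound hrels (by rw [y9]; exact sq_h) (by decide +kernel)
    · rw [← y9, ← y10]; exact pairOk_sound hrels (by rw [y9]; exact sq_h) (by decide +kernel)
    · rw [← y10, ← y12]; exact pairOk_sound hrels (by rw [y10]; exact sq_i) (by decide +kernel)
    · rw [← y10, ← y11]; exact pairOk_sound hrels (by rw [y10]; exact sq_i) (by decide +kernel)
    · rw [← y10, ← y1]; exact pairOk_sound hrels (by rw [y10]; exact sq_i) (by decide +kernel)
    · rw [← y10, ← y2]; exact pairOk_sound hrels (by rw [y10]; exact sq_i) (by decide +kernel)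
    · rw [← y10, ← y3]; exact pairOk_sound hrels (by rw [y10]; exact sq_i) (by decide +kernel)
    · rw [← y10, ← y4]; exact pairOk_sound hrels (by rw [y10]; exact sq_i) (by decide +kernel)
    · rw [← y10, ← y5]; exact pairOk_sound hrels (by rw [y10]; exact sq_i) (by decide +kernel)
    · rw [← y10, ← y6]; exact pairOk_sound hrels (by rw [y10]; exact sq_i) (by decide +kernel)
    · rw [← y10, ← y7]; exact pairOk_sound hrels (by rw [y10]; exact sq_i) (by decide +kernel)
    · rw [← y10, ← y8]; exact pairOk_sound hrels (by rw [y10]; exact sq_i) (by decide +kernel)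
    · rw [← y10, ← y9]; exact pairOk_sound hrels (by rw [y10]; exact sq_i) (by decide +kernel)
    · rw [← y10]; exact pairOk_sound hrels (by rw [y10]; exact sq_i) (by decide +kernel)


  · simp only [Set.mem_ofPred_eq, Fi24.extra, List.mem_cons, List.not_mem_nil, or_false] at hr
    rcases hr with rfl | rfl
    · have e := hrels ([12] ++ powW [1, 2, 3, 4, 5, 6, 9] 9) (by decide +kernel)
      simp only [ev_powW, ev_append, ev_cons, ev_nil, mul_one, x1, x2, x3, x4, x5, x6, x7, x8, x9, x10, x11, x12] at e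
      simp only [map_mul, map_pow, map_inv, FreeGroup.lift_apply_of]
      exact aux1 sq_l (by simpa only [mul_assoc] using e)
    · have e := hrels (powW [4, 3, 2, 1, 11, 12, 4, 5, 6, 7, 8, 4, 9, 10] 17) (by decide +kernel)
      simp only [ev_powW, ev_append, ev_cons, ev_nil, mul_one, x1, x2, x3, x4, x5, x6, x7, x8, x9, x10, x11, x12] at e
      simp only [map_mul, map_pow, map_inv, FreeGroup.lift_apply_of]
      simpa only [mul_assoc] using e

end

end Cfsg.Agent.H28.F24R
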