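import Cfsg.Agent.H28_F24D

/-! Pointwise evaluation of words in the action of Fi24 on 306936 points, and a test for the identity. -/

set_option autoImplicit false
set_option maxRecDepth 100000
set_option linter.constructorNameAsVariable false

namespace Cfsg.Agent.H28.F24

open Cfsg.Agent.H8.CE (ev ev_nil ev_cons ev_append il N N_eq)
open Cfsg.Agent.H8.Net Cfsg.Agent.H8.Act BK Cfsg.Spor
open Cfsg.Agent.H12.Fi24A (γ ε)

/-- a bit of a mask -/
noncomputable def bt (m i : ℕ) : Bool := Nat.beq (Nat.land (Nat.shiftRight m i) (nat_lit 1)) (nat_lit 1)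

theorem bt_eq (m i : ℕ) : bt m i = m.testBit i := by
  have h : Nat.land (Nat.shiftRight m i) 1 = (m.testBit i).toNat := by
    show (m >>> i) &&& 1 = _
    rw [Nat.and_one_is_mod, Nat.testBit_eq_decide_div_mod_eq, Nat.shiftRight_eq_div_pow]
    rcases Nat.mod_two_eq_zero_or_one (m / 2 ^ i) with h | h <;> rw [h] <;> rfl
  unfold bt
  show Nat.beq (Nat.land (Nat.shiftRight m i) 1) 1 = _
  rw [h]
  cases m.testBit i <;> rfl

/-- one stage on a point -/
noncomputable def stp (s m i : ℕ) : ℕ :=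
  Bool.rec (Bool.rec i (Bool.rec i (Nat.sub i s) (bt m (Nat.sub i s))) (Nat.ble s i)) (Nat.add i s) (bt m i)

theorem stp_eq (s m i : ℕ) : stp s m i = stpos s m i := by
  unfold stp stpos
  rw [bt_eq, bt_eq]
  by_cases h1 : m.testBit i = true
  · rw [h1]; simp
  · rw [Bool.not_eq_true] at h1
    rw [h1]
    by_cases h2 : s ≤ i
    · rw [Nat.ble_eq_true_of_le h2]
      have e : Nat.sub i s = i - s := rfl
      rw [e]
      cases h3 : m.testBit (i - s)
      · simp
      · simp [h2]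
    · have h3 : Nat.ble s i = false := by
        cases h : Nat.ble s i
        · rfl
        · exact absurd (Nat.le_of_ble_eq_true h) h2
      rw [h3]
      simp [h2]

/-- a network on a point -/
noncomputable def ptN (t : Nt) : ℕ → (ℕ → Bool) → Bool :=
  Nt.rec (motive := fun _ => ℕ → (ℕ → Bool) → Bool) (fun i k => k i) (fun s m _ ih i k => ih i (fun j => N (stp s m j) k)) t

theorem ptN_eq : ∀ (t : Nt) (i : ℕ) (k : ℕ → Bool), ptN t i k = k (t.pos i)
  | .nil, i, k => rfl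
  | .st s m t, i, k => by
    show ptN t i (fun j => N (stp s m j) k) = _
    rw [ptN_eq t, N_eq, stp_eq]; rfl

/-- a word on a point -/
noncomputable def ptW (w : List ℕ) : ℕ → (ℕ → Bool) → Bool :=
  List.rec (motive := fun _ => ℕ → (ℕ → Bool) → Bool) (fun i k => k i) (fun y _ ih i k => ptN (net LL y) i (fun j => ih j k)) w

theorem ptW_eq : ∀ (w : List ℕ) (i : ℕ) (k : ℕ → Bool), ptW w i k = k (tr LL w i)
  | [], i, k => rfl
  | y :: w, i, k => by
    show ptN (net LL y) i (fun j => ptW w j k) = _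
    rw [ptN_eq, ptW_eq w]; rfl

/-- the word takes i to j -/
noncomputable def chk (w : List ℕ) (i j : ℕ) : Bool := ptW (comp SS false w) i (fun a => Nat.beq a j)

theorem chk_sound {w : List ℕ} {i j : ℕ} (h : chk w i j = true) (hi : i < 306936) : tt LL SS w i = j := by
  unfold chk at h
  rw [ptW_eq] at h
  have h1 := tr_comp (S := SS) Y w false i hi
  have h2 : cl LL false i = i := rfl
  rw [h2] at h1
  rw [← h1]
  exact Nat.eq_of_beq_eq_true h

theorem φw {w : List ℕ} (hw : lt13 w = true) (i : Fin 306936) : (((φ (ev x w))⁻¹ i : Fin 306936) : ℕ) = tt LL SS w i := by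
  rw [φev]
  exact ev_PP Y ht w (lt13_sound hw) i

/-- an element fixing the point commutes with the letter -/
def CT (y : ℕ) (i : ℕ) : Prop := ∃ hi : i < 306936, ∀ g, φ g ⟨i, hi⟩ = ⟨i, hi⟩ → g * x y = x y * g

theorem x12 : x 12 = γ .l := rfl

theorem CT12 : CT 12 306935 := by
  refine ⟨by norm_num, fun g hg => ?_⟩
  have h1 := (H12.Fi24A.stab D).2 g hg
  rw [x12]
  exact (H12.Fi24A.l_comm g h1).symm

theorem CT_step {u v i j : ℕ} (h : CT u i) (hb : x u * x v * x u = x v * x u * x v) (hu : 1 ≤ u ∧ u < 13)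
    (hv : 1 ≤ v ∧ v < 13) (hc : chk [v, u] i j = true) : CT v j := by
  obtain ⟨hi, h⟩ := h
  have h1 := chk_sound hc hi
  have hw : lt13 [v, u] = true := by
    simp [lt13, Nat.ble_eq, Nat.blt_eq, hu, hv]
  have h2 := φw hw ⟨i, hi⟩
  have hj : j < 306936 := by rw [← h1]; exact tt_lt Y _ hi
  have hii : ev x [v, u] = x v * x u := by rw [ev_cons, ev_cons, ev_nil, mul_one]
  rw [hii] at h2
  have h3 : (φ (x v * x u))⁻¹ ⟨i, hi⟩ = ⟨j, hj⟩ := Fin.ext (by rw [h2]; exact h1)
  refine ⟨hj, fun g hg => ?_⟩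
  have su := sqx u hu.1 hu.2
  have sv := sqx v hv.1 hv.2
  have h4 : φ ((x v * x u) * g * (x v * x u)⁻¹) ⟨i, hi⟩ = ⟨i, hi⟩ := by
    rw [map_mul, map_mul, map_inv, Equiv.Perm.mul_apply, Equiv.Perm.mul_apply, h3, hg, ← h3]
    simp
  have h5 := h _ h4
  have iu : (x u)⁻¹ = x u := inv_eq_of_mul_eq_one_left su
  have iv : (x v)⁻¹ = x v := inv_eq_of_mul_eq_one_left sv
  have key : x u = (x v * x u) * x v * (x v * x u)⁻¹ := by
    rw [mul_inv_rev, iu, iv]
    have : x v * x u * x v * (x u * x v) = x u := by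
      rw [← hb]
      rw [show x u * x v * x u * (x u * x v) = x u * x v * (x u * x u) * x v by group, su, mul_one, mul_assoc, sv, mul_one]
    exact this.symm
  obtain ⟨c, hcc⟩ : ∃ c, c = x v * x u := ⟨_, rfl⟩
  rw [← hcc] at h5 key
  rw [key] at h5
  have h6 : c * (g * x v) * c⁻¹ = c * (x v * g) * c⁻¹ := by
    calc c * (g * x v) * c⁻¹
        = c * g * c⁻¹ * (c * x v * c⁻¹) := by group
      _ = c * x v * c⁻¹ * (c * g * c⁻¹) := h5
      _ = _ := by group
  exact mul_left_cancel (mul_right_cancel h6)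

theorem braidx {u v : ℕ} {p q : Fi24.Gen} (hu : x u = γ p) (hv : x v = γ q) (h : coxLabel Fi24.edges p q = 3) :
    x u * x v * x u = x v * x u * x v := by
  rw [hu, hv]; exact H12.Fi24A.braid h

theorem εx (y : ℕ) (h : 1 ≤ y ∧ y < 13) : ε (x y) = -1 := by
  obtain ⟨h1, h2⟩ := h
  interval_cases y
  · exact H12.Fi24A.ε_γ .a
  · exact H12.Fi24A.ε_γ .b
  · exact H12.Fi24A.ε_γ .c
  · exact H12.Fi24A.ε_γ .d
  · exact H12.Fi24A.ε_γ .e
  · exact H12.Fi24A.ε_γ .f
  · exact H12.Fi24A.ε_γ .g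
  · exact H12.Fi24A.ε_γ .j
  · exact H12.Fi24A.ε_γ .h
  · exact H12.Fi24A.ε_γ .i
  · exact H12.Fi24A.ε_γ .k
  · exact H12.Fi24A.ε_γ .l

theorem εev : ∀ (w : List ℕ), (∀ y ∈ w, 1 ≤ y ∧ y < 13) → ε (ev x w) = (-1) ^ w.length
  | [], _ => by simp
  | y :: w, h => by
    rw [ev_cons, map_mul, εx y (h y (by simp)), εev w (fun z hz => h z (by simp [hz])), List.length_cons, pow_succ]
    exact mul_comm _ _

/-- an even element fixing everything is trivial -/
theorem faithful {g : Fi24} (hε : ε g = 1) (hφ : φ g = 1) : g = 1 := by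
  obtain ⟨θ, hθ⟩ := H12.Fi24A.exists_theta D.spider
  have hs : IsSimpleGroup Spor.Fi23 := H8.Fi23M.simple
  have hH : g ∈ H12.Fi24A.H := (H12.Fi24A.stab D).2 g (by rw [hφ]; rfl)
  obtain ⟨y, hy⟩ := H12.Fi24A.mem_range_of hθ hH hε
  have hinj := H12.Fi24A.inj D hs hθ
  have : (φ.comp θ) y = (φ.comp θ) 1 := by
    rw [map_one, MonoidHom.comp_apply, hy, hφ]
  rw [← hy, hinj this, map_one]

end Cfsg.Agent.H28.F24
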