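import Cfsg.Agent.H28_F24H

/-! Words for the Held group in Fi24. -/

set_option autoImplicit false
set_option maxRecDepth 100000

namespace Cfsg.Agent.H28.F24

open Cfsg.Agent.H8.Act BK

/-- the points of the letters -/
def gps : List ℕ := [306912, 306657, 306913, 303329, 306917, 305997, 306922, 306791, 306918, 306759, 275138, 306935]

def hw1 : List ℕ := [7, 12]

def hw2 : List ℕ := [6, 8, 7, 4, 6, 8, 10, 3, 5, 9, 2, 4, 1, 3, 5, 9, 2, 4, 10, 1, 3, 5, 9, 2, 4, 6, 1, 3, 5, 9, 2, 4, 6, 11, 1, 3, 5, 7, 9, 2, 4, 6, 10, 3, 5, 9, 4, 3, 5, 9, 2, 4, 6, 10, 1, 3, 5, 7, 9, 2, 4, 6, 11, 1, 3, 5, 9, 2, 4, 6, 1, 3, 5, 9, 2, 4, 10, 1, 3, 5, 9, 2, 4, 3, 5, 9, 4, 10]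

def hw3 : List ℕ := [1, 5]

def hw4 : List ℕ := [4, 7, 9, 12, 2, 4, 3, 2, 4, 9]

def hw5 : List ℕ := [1, 3, 7, 12]

def hw6 : List ℕ := [7, 12, 2, 6, 1, 3, 5, 7, 9, 2, 4, 6, 10, 3, 5, 9, 4, 3, 5, 9, 2, 4, 6, 10, 1, 3, 5, 7, 9, 2, 6, 10]

def hw7 : List ℕ := [7, 12, 10, 9, 6, 5, 7, 4, 6, 3, 5, 9, 4, 3, 5, 9, 4, 6, 5, 7, 6, 10]

/-- words of the generators of the Held group -/
def hws : List (List ℕ) := [[], hw1, hw2, hw3, hw4, hw5, hw6, hw7]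

/-- expansion of a word -/
noncomputable def ex (w : List ℕ) : List ℕ :=
  List.rec (motive := fun _ => List ℕ) [] (fun y _ ih => hws.getD y [] ++ ih) w

/-- the word fixes the given points -/
noncomputable def fixW (w is : List ℕ) : Bool :=
  List.rec (motive := fun _ => Bool) true (fun i _ ih => Bool.rec false ih (chk (ex w) i i)) is

end Cfsg.Agent.H28.F24
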