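import Cfsg.Agent.H8_HeA
import Cfsg.Agent.H8_He2T
import Cfsg.Agent.H8_He3T
import Cfsg.Agent.H8_He4T
import Cfsg.Agent.H8_He5T
import Cfsg.Agent.H8_Act3
import Cfsg.Prelude.Def_Sporadic

set_option autoImplicit false
set_option maxRecDepth 100000
set_option linter.constructorNameAsVariable false

namespace Cfsg.Agent.H8.HeM

open CE Net Act Cox CS HeR Act2 Cfsg.Spor

abbrev RR : Set (FreeGroup He.Gen) := coxRelators He.edges ∪ {r | r ∈ He.extra}

/-- the letters in the presented group -/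
noncomputable abbrev x : ℕ → He := xG RR lm

theorem hic : ∀ y, y < 16 → x (il ic y) = (x y)⁻¹ := by
  have h := (words _ (lift_of_rel RR)).1
  rw [← xG_eq] at h
  exact h

theorem hrels : ∀ w ∈ rels, ev x w = 1 := by
  have h := (words _ (lift_of_rel RR)).2
  rw [← xG_eq] at h
  exact h

theorem h0 : x 0 = 1 := by
  unfold x xG
  simp [lm]

theorem sub_rels {rs : List (List ℕ)} (h : (rs.all fun w => rels.contains w) = true) : ∀ w ∈ rs, ev x w = 1 := by
  intro w hw
  rw [List.all_eq_true] at h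
  have := h w hw
  rw [List.contains_iff_mem] at this
  exact hrels w this

/-- subgroups generated by lists of letters -/
noncomputable def Hl (l : List ℕ) : Subgroup He := Subgroup.closure (x '' {y | y ∈ l})

theorem Hl_mono {l l' : List ℕ} (h : (l.all fun y => l'.contains y) = true) : Hl l ≤ Hl l' := by
  apply Subgroup.closure_mono
  apply Set.image_mono
  intro y hy
  rw [List.all_eq_true] at h
  have := h y hy
  rwa [List.contains_iff_mem] at this

theorem mem_Hl {l : List ℕ} {y : ℕ} (h : l.contains y = true) : x y ∈ Hl l :=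
  Subgroup.subset_closure ⟨y, by rwa [List.contains_iff_mem] at h, rfl⟩

theorem Hl_top : Hl [1, 2, 3, 4, 5, 6, 7] = ⊤ := by
  apply closure_top
  intro a
  cases a
  exacts [⟨1, by decide, rfl⟩, ⟨2, by decide, rfl⟩, ⟨3, by decide, rfl⟩, ⟨4, by decide, rfl⟩,
    ⟨5, by decide, rfl⟩, ⟨6, by decide, rfl⟩, ⟨7, by decide, rfl⟩]

/-- the extra relator -/
def zw : List ℕ := [3, 4, 3, 4, 5, 4, 3, 4, 3, 4, 5, 4, 3, 4, 5]

theorem hz : ev x zw = 1 := by
  have h := He5T.word0 (x := x) (H := ⊥) hic h0 (sub_rels (by decide +kernel)) (by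
    intro s hs
    simp [He5T.L] at hs)
  rwa [Subgroup.mem_bot] at h

theorem hrels' : ∀ w ∈ zw :: rels, ev x w = 1 := by
  intro w hw
  rw [List.mem_cons] at hw
  rcases hw with rfl | hw
  · exact hz
  · exact hrels w hw

theorem b2 : (Hl [1, 3, 4, 5, 6, 7]).relIndex (Hl [1, 2, 3, 4, 5, 6, 7]) ≤ 49980 ∧
    (Hl [1, 3, 4, 5, 6, 7]).relIndex (Hl [1, 2, 3, 4, 5, 6, 7]) ≠ 0 := by
  have h := He2T.bound (x := x) (H := Hl [1, 3, 4, 5, 6, 7])
    hic h0 (sub_rels (by decide +kernel)) (by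
      intro s hs
      simp only [He2T.L, List.mem_cons, List.not_mem_nil, or_false] at hs
      rcases hs with rfl | rfl | rfl | rfl | rfl | rfl <;> exact mem_Hl (by decide))
  have e : (x '' {y | 1 ≤ y ∧ y ≤ 7}) = x '' {y | y ∈ [1, 2, 3, 4, 5, 6, 7]} := by
    congr 1
    ext y
    simp only [Set.mem_ofPred_eq, List.mem_cons, List.not_mem_nil, or_false]
    omega
  rw [e] at h
  exact h

theorem b3 : (Hl [4, 5, 6, 7]).relIndex (Hl [1, 3, 4, 5, 6, 7]) ≤ 480 ∧
    (Hl [4, 5, 6, 7]).relIndex (Hl [1, 3, 4, 5, 6, 7]) ≠ 0 := by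
  have h := He3T.bound (x := ren x [0, 1, 3, 4, 5, 6, 7]) (H := Hl [4, 5, 6, 7])
    (ren_hic hic (by decide +kernel)) h0 (ren_rels hrels' (by decide +kernel)) (by
      intro s hs
      simp only [He3T.L, List.mem_cons, List.not_mem_nil, or_false] at hs
      rcases hs with rfl | rfl | rfl | rfl <;> exact mem_Hl (by decide))
  rw [ren_image [0, 1, 3, 4, 5, 6, 7] 6 [1, 3, 4, 5, 6, 7] (by decide) (by decide)] at h
  exact h

theorem b4 : (⊥ : Subgroup He).relIndex (Hl [4, 5, 6, 7]) ≤ 168 ∧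
    (⊥ : Subgroup He).relIndex (Hl [4, 5, 6, 7]) ≠ 0 := by
  have h := He4T.bound (x := ren x [0, 4, 5, 6, 7]) (H := ⊥)
    (ren_hic hic (by decide +kernel)) h0 (ren_rels hrels' (by decide +kernel)) (by
      intro s hs
      simp [He4T.L] at hs)
  rw [ren_image [0, 4, 5, 6, 7] 4 [4, 5, 6, 7] (by decide) (by decide)] at h
  exact h

theorem c4 : Nat.card (Hl [4, 5, 6, 7]) ≤ 168 ∧ Nat.card (Hl [4, 5, 6, 7]) ≠ 0 := by
  have h := b4
  rwa [Subgroup.relIndex_bot_left] at h

theorem c3 : Nat.card (Hl [1, 3, 4, 5, 6, 7]) ≤ 480 * 168 ∧ Nat.card (Hl [1, 3, 4, 5, 6, 7]) ≠ 0 :=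
  card_le_of_relIndex (Hl_mono (by decide)) b3 c4

theorem c2 : Nat.card (Hl [1, 2, 3, 4, 5, 6, 7]) ≤ 49980 * (480 * 168) ∧ Nat.card (Hl [1, 2, 3, 4, 5, 6, 7]) ≠ 0 :=
  card_le_of_relIndex (Hl_mono (by decide)) b2 c3

theorem card_le : Nat.card He ≤ 4030387200 := by
  have h := c2.1
  rw [Hl_top, Subgroup.card_top] at h
  exact h

instance instFiniteHe : Finite He := by
  have h := c2.2
  rw [Hl_top, Subgroup.card_top] at h
  exact Nat.finite_of_card_ne_zero h

/-! ### The action on 2058 points -/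

theorem hn : 2058 ≤ 2 ^ 12 := by decide

/-- images of the letters -/
noncomputable abbrev y (j : ℕ) := xP HeA.sys hn HeA.inv_ok j

/-- images of the generators -/
noncomputable def fP : He.Gen → Equiv.Perm (Fin 2058)
  | .a => y 1
  | .b => y 2
  | .c => y 3
  | .d => y 4
  | .e => y 5
  | .f => y 6
  | .g => y 7

theorem relP : ∀ w ∈ rels, ev (xP HeA.sys hn HeA.inv_ok) w = 1 :=
  relP_of HeA.sys hn HeA.inv_ok HeA.rel_ok (by decide +kernel)

theorem inv98 : y 9 = (y 8)⁻¹ := xP_il HeA.sys hn HeA.inv_ok 8 (by decide)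
theorem inv11 : y 11 = (y 10)⁻¹ := xP_il HeA.sys hn HeA.inv_ok 10 (by decide)

theorem y8 : (y 1 * y 2) ^ 2 = y 8 := by
  have h := relP (powW [1, 2] 2 ++ [9]) (by decide +kernel)
  simp only [ev_powW, ev_append, ev_cons, ev_nil, mul_one] at h
  rw [mul_eq_one_iff_eq_inv] at h
  rw [h]
  show (y 9)⁻¹ = y 8
  rw [inv98, inv_inv]

theorem y10 : (y 2 * y 3 * y 4 * y 5) ^ 7 = y 10 := by
  have h := relP (powW [2, 3, 4, 5] 7 ++ [11]) (by decide +kernel)
  simp only [ev_powW, ev_append, ev_cons, ev_nil, mul_one] at h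
  rw [mul_eq_one_iff_eq_inv] at h
  have h2 : (y 2 * y 3 * y 4 * y 5) ^ 7 = (y 11)⁻¹ := by
    rw [← h]; simp only [mul_assoc]
  rw [h2, inv11, inv_inv]

theorem fP_x (j : ℕ) (hj : j < 16) : xF fP lm j = xP HeA.sys hn HeA.inv_ok j := by
  interval_cases j
  · rw [xP_eq_one _ _ _ _ rfl]; simp [xF, lm]
  · rw [x1]; rfl
  · rw [x2]; rfl
  · rw [x3]; rfl
  · rw [x4]; rfl
  · rw [x5]; rfl
  · rw [x6]; rfl
  · rw [x7]; rfl
  · rw [x8]; exact y8
  · rw [x9]; exact (congrArg _ y8).trans inv98.symm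
  · rw [x10]; exact y10
  · rw [x11]; exact (congrArg _ y10).trans inv11.symm
  all_goals rw [xP_eq_one _ _ _ _ rfl]; simp [xF, lm]

theorem exists_phi : ∃ φ : He →* Equiv.Perm (Fin 2058), Compat φ x HeA.L :=
  exists_action RR lm HeA.sys hn HeA.inv_ok HeA.rel_ok (by decide +kernel) fP fP_x (lifts fP)

/-- the action -/
noncomputable def phi : He →* Equiv.Perm (Fin 2058) := exists_phi.choose

theorem compat : Compat phi x HeA.L := exists_phi.choose_spec

theorem main : Nat.card He = 4030387200 ∧ Function.Injective phi := by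
  have h := order_eq (φ := phi) HeA.sys
    (exists_g HeA.sys hn compat HeA.sg_ok (by decide +kernel)) HeA.levs HeA.chain
    (by rw [HeA.prodM_levs]; exact card_le)
  rwa [HeA.prodM_levs] at h

theorem simple : IsSimpleGroup He := by
  refine simple_of_data (p := 7) (e := 3) HeA.sys hn compat main.2 hic (by decide) (by decide) (by decide) HeA.trans
    HeA.hfix HeA.orbs (by decide) (by decide) (by decide) (by decide) ?_ HeA.pw_ok ?_
  · rw [main.1]; decide
  · apply closure_top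
    intro a
    cases a
    exacts [⟨1, by decide, rfl⟩, ⟨2, by decide, rfl⟩, ⟨3, by decide, rfl⟩, ⟨4, by decide, rfl⟩,
      ⟨5, by decide, rfl⟩, ⟨6, by decide, rfl⟩, ⟨7, by decide, rfl⟩]

theorem isHe : Cfsg.IsHe He := ⟨simple, main.1⟩

end Cfsg.Agent.H8.HeM
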