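import Cfsg.Agent.H28_F24HB
import Cfsg.Agent.H8_HeM

/-! The Held group in Fi24'. -/

set_option autoImplicit false
set_option maxRecDepth 100000
set_option linter.constructorNameAsVariable false

namespace Cfsg.Agent.H28.F24

open Cfsg.Agent.H8.CE (ev ev_nil ev_cons ev_append il N N_eq)
open Cfsg.Agent.H8.Net Cfsg.Agent.H8.Act Cfsg.Agent.H8.Cox BK Cfsg.Spor
open Cfsg.Agent.H12.Fi24A (γ ε)

theorem ct12 : CT 12 306935 := CT12
theorem ct11 : CT 11 275138 := CT_step ct12 (braidx (p := .l) (q := .k) rfl rfl (by decide)) (by decide) (by decide) (by decide +kernel)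
theorem ct1 : CT 1 306912 := CT_step ct11 (braidx (p := .k) (q := .a) rfl rfl (by decide)) (by decide) (by decide) (by decide +kernel)
theorem ct2 : CT 2 306657 := CT_step ct1 (braidx (p := .a) (q := .b) rfl rfl (by decide)) (by decide) (by decide) (by decide +kernel)
theorem ct3 : CT 3 306913 := CT_step ct2 (braidx (p := .b) (q := .c) rfl rfl (by decide)) (by decide) (by decide) (by decide +kernel)
theorem ct4 : CT 4 303329 := CT_step ct3 (braidx (p := .c) (q := .d) rfl rfl (by decide)) (by decide) (by decide) (by decide +kernel)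
theorem ct5 : CT 5 306917 := CT_step ct4 (braidx (p := .d) (q := .e) rfl rfl (by decide)) (by decide) (by decide) (by decide +kernel)
theorem ct6 : CT 6 305997 := CT_step ct5 (braidx (p := .e) (q := .f) rfl rfl (by decide)) (by decide) (by decide) (by decide +kernel)
theorem ct7 : CT 7 306922 := CT_step ct6 (braidx (p := .f) (q := .g) rfl rfl (by decide)) (by decide) (by decide) (by decide +kernel)
theorem ct8 : CT 8 306791 := CT_step ct7 (braidx (p := .g) (q := .j) rfl rfl (by decide)) (by decide) (by decide) (by decide +kernel)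
theorem ct9 : CT 9 306918 := CT_step ct4 (braidx (p := .d) (q := .h) rfl rfl (by decide)) (by decide) (by decide) (by decide +kernel)
theorem ct10 : CT 10 306759 := CT_step ct9 (braidx (p := .h) (q := .i) rfl rfl (by decide)) (by decide) (by decide) (by decide +kernel)

/-- an element fixing all the twelve points and even is trivial -/
theorem triv_of {g : Fi24} (hε : ε g = 1) (hf : ∀ i : Fin 306936, (i : ℕ) ∈ gps → φ g i = i) : g = 1 := by
  have use : ∀ {y i : ℕ}, CT y i → i ∈ gps → g * x y = x y * g := by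
    rintro y i ⟨hi, h⟩ hm
    exact h g (hf ⟨i, hi⟩ hm)
  have hc : ∀ y, 1 ≤ y → y < 13 → g * x y = x y * g := by
    intro y h1 h2
    interval_cases y
    · exact use ct1 (by decide)
    · exact use ct2 (by decide)
    · exact use ct3 (by decide)
    · exact use ct4 (by decide)
    · exact use ct5 (by decide)
    · exact use ct6 (by decide)
    · exact use ct7 (by decide)
    · exact use ct8 (by decide)
    · exact use ct9 (by decide)
    · exact use ct10 (by decide)
    · exact use ct11 (by decide)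
    · exact use ct12 (by decide)
  have hz : ∀ u : Fi24, g * u = u * g := by
    have hle : Subgroup.closure (x '' {y | 1 ≤ y ∧ y < 13}) ≤ Subgroup.centralizer ({g} : Set Fi24) := by
      rw [Subgroup.closure_le]
      rintro _ ⟨y, ⟨h1, h2⟩, rfl⟩
      rw [SetLike.mem_coe, Subgroup.mem_centralizer_singleton_iff]
      exact (hc y h1 h2).symm
    rw [x_top] at hle
    intro u
    exact (Subgroup.mem_centralizer_singleton_iff.1 (hle (Subgroup.mem_top u))).symm
  refine faithful hε ?_
  ext i
  obtain ⟨u, hu⟩ := D.htr i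
  have hb : φ g b0 = b0 := hf b0 (by decide)
  have : φ g i = i := by
    rw [← hu, ← Equiv.Perm.mul_apply, ← map_mul, hz u, map_mul, Equiv.Perm.mul_apply, hb]
  rw [this]; rfl

theorem triv_w {w : List ℕ} (hw : lt13 w = true) (he : w.length % 2 = 0) (hf : ∀ i ∈ gps, tt LL SS w i = i) : ev x w = 1 := by
  refine triv_of ?_ ?_
  · rw [εev w (lt13_sound hw)]
    exact Even.neg_one_pow (Nat.even_iff.2 he)
  · intro i hi
    have h1 := φw hw i
    rw [hf i hi] at h1
    have h2 : (φ (ev x w))⁻¹ i = i := Fin.ext h1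
    rw [Equiv.Perm.inv_eq_iff_eq] at h2
    exact h2.symm

theorem fixW_sound {w : List ℕ} : ∀ {is : List ℕ}, fixW w is = true → ∀ i ∈ is, chk (ex w) i i = true
  | [], _ => by simp
  | j :: is, h => by
    have e : fixW w (j :: is) = Bool.rec false (fixW w is) (chk (ex w) j j) := rfl
    rw [e] at h
    cases hb : chk (ex w) j j
    · rw [hb] at h; exact absurd h (by simp)
    · rw [hb] at h
      intro i hi
      rcases List.mem_cons.1 hi with rfl | hi
      · exact hb
      · exact fixW_sound h i hi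

theorem ev_ex : ∀ w : List ℕ, ev x (ex w) = ev (fun y => ev x (hws.getD y [])) w
  | [] => rfl
  | y :: w => by
    show ev x (hws.getD y [] ++ ex w) = _
    rw [ev_append, ev_cons, ev_ex w]

theorem gps_lt : ∀ i ∈ gps, i < 306936 := by decide

theorem hrs_one {w : List ℕ} (h : w ∈ hrs) : ev x (ex w) = 1 := by
  have h1 : (hrs.all fun w => lt13 (ex w) && Nat.beq ((ex w).length % 2) 0) = true := by decide +kernel
  rw [List.all_eq_true] at h1
  have h2 := h1 w h
  rw [Bool.and_eq_true] at h2
  refine triv_w h2.1 (Nat.eq_of_beq_eq_true h2.2) ?_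
  intro i hi
  exact chk_sound (fixW_sound (hrs_ok w h) i hi) (gps_lt i hi)

/-- the values of the generators of the Held group -/
noncomputable def fHe : He.Gen → Fi24
  | .a => ev x hw1 | .b => ev x hw2 | .c => ev x hw3 | .d => ev x hw4 | .e => ev x hw5 | .f => ev x hw6 | .g => ev x hw7

theorem fHe_xF (y : ℕ) (h1 : 1 ≤ y) (h2 : y < 8) : xF fHe H8.HeR.lm y = ev x (hws.getD y []) := by
  interval_cases y
  · exact H8.HeR.x1 fHe
  · exact H8.HeR.x2 fHe
  · exact H8.HeR.x3 fHe
  · exact H8.HeR.x4 fHe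
  · exact H8.HeR.x5 fHe
  · exact H8.HeR.x6 fHe
  · exact H8.HeR.x7 fHe

theorem ev_congr {G : Type*} [Group G] {f g : ℕ → G} : ∀ {w : List ℕ}, (∀ y ∈ w, f y = g y) → ev f w = ev g w
  | [], _ => rfl
  | y :: w, h => by rw [ev_cons, ev_cons, h y (by simp), ev_congr (fun z hz => h z (by simp [hz]))]

theorem rel_He {w : List ℕ} (h : w ∈ hrs) (h2 : (w.all fun y => Nat.ble 1 y && Nat.blt y 8) = true) :
    ev (xF fHe H8.HeR.lm) w = 1 := by
  have e : ev (xF fHe H8.HeR.lm) w = ev (fun y => ev x (hws.getD y [])) w := by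
    apply ev_congr
    intro y hy
    rw [List.all_eq_true] at h2
    have := h2 y hy
    rw [Bool.and_eq_true, Nat.ble_eq, Nat.blt_eq] at this
    exact fHe_xF y this.1 this.2
  rw [e, ← ev_ex, hrs_one h]

theorem sqHe (y : ℕ) (h : [y, y] ∈ hrs) (h1 : 1 ≤ y) (h2 : y < 8) : xF fHe H8.HeR.lm y = (xF fHe H8.HeR.lm y)⁻¹ := by
  have h3 := rel_He h (by simp [Nat.ble_eq, Nat.blt_eq, h1, h2])
  rw [ev_cons, ev_cons, ev_nil, mul_one] at h3
  exact eq_inv_of_mul_eq_one_left h3

theorem hicHe : ∀ y, y < 16 → xF fHe H8.HeR.lm (il H8.HeR.ic y) = (xF fHe H8.HeR.lm y)⁻¹ := by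
  intro y hy
  interval_cases y
  · rw [show il H8.HeR.ic 0 = 0 by decide]; simp [xF, H8.HeR.lm]
  · rw [show il H8.HeR.ic 1 = 1 by decide]; exact sqHe 1 (by decide) (by decide) (by decide)
  · rw [show il H8.HeR.ic 2 = 2 by decide]; exact sqHe 2 (by decide) (by decide) (by decide)
  · rw [show il H8.HeR.ic 3 = 3 by decide]; exact sqHe 3 (by decide) (by decide) (by decide)
  · rw [show il H8.HeR.ic 4 = 4 by decide]; exact sqHe 4 (by decide) (by decide) (by decide)
  · rw [show il H8.HeR.ic 5 = 5 by decide]; exact sqHe 5 (by decide) (by decide) (by decide)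
  · rw [show il H8.HeR.ic 6 = 6 by decide]; exact sqHe 6 (by decide) (by decide) (by decide)
  · rw [show il H8.HeR.ic 7 = 7 by decide]; exact sqHe 7 (by decide) (by decide) (by decide)
  · rw [show il H8.HeR.ic 8 = 9 by decide, H8.HeR.x9, H8.HeR.x8]
  · rw [show il H8.HeR.ic 9 = 8 by decide, H8.HeR.x8, H8.HeR.x9]; simp
  · rw [show il H8.HeR.ic 10 = 11 by decide, H8.HeR.x11, H8.HeR.x10]
  · rw [show il H8.HeR.ic 11 = 10 by decide, H8.HeR.x10, H8.HeR.x11]; simp
  · rw [show il H8.HeR.ic 12 = 0 by decide]; simp [xF, H8.HeR.lm]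
  · rw [show il H8.HeR.ic 13 = 0 by decide]; simp [xF, H8.HeR.lm]
  · rw [show il H8.HeR.ic 14 = 0 by decide]; simp [xF, H8.HeR.lm]
  · rw [show il H8.HeR.ic 15 = 0 by decide]; simp [xF, H8.HeR.lm]

theorem relsHe : ∀ w ∈ H8.HeR.rels, ev (xF fHe H8.HeR.lm) w = 1 := by
  intro w hw
  have h0 : (H8.HeR.rels.all fun w => (hrs.contains w && (w.all fun y => Nat.ble 1 y && Nat.blt y 8)) ||
      ((w == powW [1, 2] 2 ++ [9]) || (w == powW [2, 3, 4, 5] 7 ++ [11]))) = true := by decide +kernel
  rw [List.all_eq_true] at h0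
  have h1 := h0 w hw
  rw [Bool.or_eq_true, Bool.or_eq_true, Bool.and_eq_true, List.contains_iff_mem, beq_iff_eq, beq_iff_eq] at h1
  rcases h1 with ⟨h1, h2⟩ | rfl | rfl
  · exact rel_He h1 h2
  · simp only [ev_powW, ev_append, ev_cons, ev_nil, mul_one, H8.HeR.x1, H8.HeR.x2, H8.HeR.x9, mul_assoc]
    exact mul_inv_cancel _
  · simp only [ev_powW, ev_append, ev_cons, ev_nil, mul_one, H8.HeR.x2, H8.HeR.x3, H8.HeR.x4, H8.HeR.x5, H8.HeR.x11, mul_assoc]
    exact mul_inv_cancel _

/-- the homomorphism from the Held group -/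
noncomputable def ψ : He →* Fi24 := PresentedGroup.toGroup (H8.HeR.lifts fHe hicHe relsHe)

theorem ψ_of (s : He.Gen) : ψ (PresentedGroup.of s) = fHe s := PresentedGroup.toGroup.of _

theorem chk_ne {w : List ℕ} {i j : ℕ} (h : chk w i j = false) (hi : i < 306936) : tt LL SS w i ≠ j := by
  unfold chk at h
  rw [ptW_eq] at h
  have h1 := tr_comp (S := SS) Y w false i hi
  have h2 : cl LL false i = i := rfl
  rw [h2] at h1
  rw [h1] at h
  intro e
  rw [e, Nat.beq_refl] at h
  exact absurd h (by simp)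

theorem a_ne : fHe .a ≠ 1 := by
  intro h
  have h1 : lt13 hw1 = true := by decide
  have h2 := φw h1 ⟨305997, by norm_num⟩
  have h3 : ev x hw1 = 1 := h
  rw [h3, map_one, inv_one] at h2
  have h4 : chk hw1 305997 305997 = false := by decide +kernel
  exact chk_ne h4 (by norm_num) h2.symm

theorem ψ_inj : Function.Injective ψ := by
  haveI : IsSimpleGroup He := H8.HeM.simple
  rw [← MonoidHom.ker_eq_bot_iff]
  rcases IsSimpleGroup.eq_bot_or_eq_top_of_normal ψ.ker inferInstance with h | h
  · exact h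
  · exfalso
    apply a_ne
    rw [← ψ_of]
    have : PresentedGroup.of He.Gen.a ∈ ψ.ker := by rw [h]; trivial
    exact this

theorem εf (s : He.Gen) : ε (fHe s) = 1 := by
  have key : ∀ w : List ℕ, lt13 w = true → w.length % 2 = 0 → ε (ev x w) = 1 := by
    intro w hw he
    rw [εev w (lt13_sound hw)]
    exact Even.neg_one_pow (Nat.even_iff.2 he)
  cases s
  · exact key hw1 (by decide) (by decide)
  · exact key hw2 (by decide) (by decide)
  · exact key hw3 (by decide) (by decide)
  · exact key hw4 (by decide) (by decide)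
  · exact key hw5 (by decide) (by decide)
  · exact key hw6 (by decide) (by decide)
  · exact key hw7 (by decide) (by decide)

theorem ψ_mem (u : He) : ψ u ∈ commutator Fi24 := by
  rw [← H12.Fi24A.ker_eps, MonoidHom.mem_ker]
  have h : ε.comp ψ = 1 := by
    apply PresentedGroup.ext
    intro s
    rw [MonoidHom.comp_apply, ψ_of, εf]; rfl
  have := DFunLike.congr_fun h u
  exact this

theorem hHe : ∃ K : Subgroup (commutator Fi24), Cfsg.IsHe K := by
  let f : He →* commutator Fi24 := ψ.codRestrict _ ψ_mem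
  have hf : Function.Injective f := by
    intro a b hab
    exact ψ_inj (congrArg Subtype.val hab)
  have e : He ≃* f.range := MonoidHom.ofInjective hf
  haveI : IsSimpleGroup He := H8.HeM.simple
  refine ⟨f.range, e.symm.isSimpleGroup, ?_⟩
  rw [← Nat.card_congr e.toEquiv]
  exact H8.HeM.main.1

end Cfsg.Agent.H28.F24
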