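import Cfsg.Agent.H28_BK
import Cfsg.Agent.H28_F24P
import Cfsg.Agent.H28_F24S
import Cfsg.Agent.H28_F24W

set_option autoImplicit false
set_option maxRecDepth 1000000

namespace Cfsg.Agent.H28.F24

open Cfsg.Agent.H8.Net BK

/-- the letters a b c d e f g j h i k l, the two relabellings and the word of length 14 -/
noncomputable def LL : List Nt := [.nil, na, nb, nc, nd, ne, nf, ng, nj, nh, ni, nk, nl, p21, p12, nW]

/-- letters living in labelling 2 -/
def SS : ℕ := nat_lit 3412

theorem sys : sysOk LL (nat_lit 306936) = true := by decide +kernel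

theorem c13 : eqW LL (nat_lit 306936) (nat_lit 19) [13, 14] [] = true := by decide +kernel

theorem c14 : eqW LL (nat_lit 306936) (nat_lit 19) [14, 13] [] = true := by decide +kernel

theorem Y : Sys LL 306936 where
  hs := sys
  h1 := fun v hv => eqW_sound sys (by norm_num) c13 v hv
  h2 := fun v hv => eqW_sound sys (by norm_num) c14 v hv

end Cfsg.Agent.H28.F24
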