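import Cfsg.Agent.H28_BK2
import Cfsg.Agent.H28_F24G
import Cfsg.Agent.H28_F24EW0
import Cfsg.Agent.H28_F24B

set_option autoImplicit false
set_option maxRecDepth 100000

namespace Cfsg.Agent.H28.F24

open Cfsg.Agent.H8.CE (ev ev_nil ev_cons ev_append il)
open Cfsg.Agent.H8.Net Cfsg.Agent.H8.Act Cfsg.Agent.H8.Act5 Cfsg.Agent.H8.Cox BK Cfsg.Spor

theorem n19 : 306936 ≤ 2 ^ 19 := by norm_num

theorem gA : Good LL 306936 19 pA := good_of_eqR eA0

theorem gB : Good LL 306936 19 pB := by
  have h0 : PlEq LL 306936 19 pB 0 4 := plEq_of eB0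
  have h1 : PlEq LL 306936 19 pB 4 8 := plEq_of eB1
  have h2 : PlEq LL 306936 19 pB 8 12 := plEq_of eB2
  have h3 : PlEq LL 306936 19 pB 12 16 := plEq_of eB3
  have h4 : PlEq LL 306936 19 pB 16 19 := plEq_of eB4
  exact good_of_plEq (plEq_trans h0 (plEq_trans h1 (plEq_trans h2 (plEq_trans h3 h4))))

theorem gC : Good LL 306936 19 pC := by
  have h0 : PlEq LL 306936 19 pC 0 10 := plEq_of eC0
  have h1 : PlEq LL 306936 19 pC 10 19 := plEq_of eC1
  exact good_of_plEq (plEq_trans h0 h1)

theorem gV : Good LL 306936 19 pV := good_of_eqR eV0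

theorem gW : Good LL 306936 19 pW := good_of_eqR eW0

theorem use {ps : List (List ℕ × List ℕ)} (hg : Good LL 306936 19 ps) {u w : List ℕ} (h : (u, w) ∈ ps) (i : ℕ)
    (hi : i < 306936) : tr LL u i = tr LL w i := eqW_sound sys n19 (hg _ h) i hi

/-- same side -/
noncomputable def sideB (s : Bool) (u : List ℕ) : Bool := u.all fun y => sd SS y == s

theorem sideB_sound {s : Bool} {u : List ℕ} (h : sideB s u = true) : ∀ y ∈ u, sd SS y = s := by
  intro y hy
  unfold sideB at h
  rw [List.all_eq_true] at h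
  exact beq_iff_eq.1 (h y hy)

theorem rawEq {s : Bool} {u w : List ℕ} (hu : sideB s u = true) (hw : sideB s w = true) (h : (u, w) ∈ pA) :
    ∀ v, v < 306936 → tt LL SS u v = tt LL SS w v :=
  tt_of_raw Y (sideB_sound hu) (sideB_sound hw) (use gA h)

theorem sq1 (y : ℕ) (h1 : 1 ≤ y) (h2 : y < 13) : ∀ v, v < 306936 → tt LL SS [y, y] v = v := by
  intro v hv
  have e : tt LL SS [] v = v := rfl
  rw [← e]
  interval_cases y
  · exact rawEq (s := false) (by decide +kernel) (by decide +kernel) (by decide +kernel) v hv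
  · exact rawEq (s := true) (by decide +kernel) (by decide +kernel) (by decide +kernel) v hv
  · exact rawEq (s := false) (by decide +kernel) (by decide +kernel) (by decide +kernel) v hv
  · exact rawEq (s := true) (by decide +kernel) (by decide +kernel) (by decide +kernel) v hv
  · exact rawEq (s := false) (by decide +kernel) (by decide +kernel) (by decide +kernel) v hv
  · exact rawEq (s := true) (by decide +kernel) (by decide +kernel) (by decide +kernel) v hv
  · exact rawEq (s := false) (by decide +kernel) (by decide +kernel) (by decide +kernel) v hv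
  · exact rawEq (s := true) (by decide +kernel) (by decide +kernel) (by decide +kernel) v hv
  · exact rawEq (s := false) (by decide +kernel) (by decide +kernel) (by decide +kernel) v hv
  · exact rawEq (s := true) (by decide +kernel) (by decide +kernel) (by decide +kernel) v hv
  · exact rawEq (s := true) (by decide +kernel) (by decide +kernel) (by decide +kernel) v hv
  · exact rawEq (s := false) (by decide +kernel) (by decide +kernel) (by decide +kernel) v hv

theorem ht : ∀ y, 1 ≤ y → y < 13 → ∀ v, v < 306936 → tl LL SS y (tl LL SS y v) = v := fun y h1 h2 v hv => sq1 y h1 h2 v hv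

/-- the letters as permutations -/
noncomputable def P : ℕ → Equiv.Perm (Fin 306936) := PP Y ht

/-- check of one Coxeter relation -/
noncomputable def okP (p : ℕ × ℕ × ℕ) : Bool :=
  Nat.ble 1 p.1 && Nat.blt p.1 13 && Nat.ble 1 p.2.1 && Nat.blt p.2.1 13 &&
  ((Nat.beq p.2.2 2 && ((sideB (sd SS p.1) [p.1, p.2.1] && (pA.contains ([p.1, p.2.1], [p.2.1, p.1]) || pA.contains ([p.2.1, p.1], [p.1, p.2.1]))) ||
     (pB.contains (comp SS false [p.1, p.2.1], comp SS false [p.2.1, p.1]) ||
      pB.contains (comp SS false [p.2.1, p.1], comp SS false [p.1, p.2.1])))) ||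
   (Nat.beq p.2.2 3 && (pB.contains (comp SS false [p.1, p.2.1, p.1], comp SS false [p.2.1, p.1, p.2.1]) ||
      pB.contains (comp SS false [p.2.1, p.1, p.2.1], comp SS false [p.1, p.2.1, p.1]))))

theorem okP_sound {p : ℕ × ℕ × ℕ} (h : okP p = true) : ∀ v, v < 306936 → tt LL SS (coxW p.1 p.2.1 p.2.2) v = v := by
  obtain ⟨i, j, m⟩ := p
  unfold okP at h
  simp only [Bool.and_eq_true, Nat.ble_eq, Nat.blt_eq] at h
  obtain ⟨⟨⟨⟨i1, i2⟩, j1⟩, j2⟩, h⟩ := h
  rw [Bool.or_eq_true, Bool.and_eq_true, Bool.and_eq_true] at h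
  rcases h with ⟨hm, h⟩ | ⟨hm, h⟩
  · have hm' : m = 2 := Nat.eq_of_beq_eq_true hm
    subst hm'
    refine cox2 Y (sq1 i i1 i2) (sq1 j j1 j2) ?_
    rw [Bool.or_eq_true, Bool.and_eq_true, Bool.or_eq_true, Bool.or_eq_true, List.contains_iff_mem, List.contains_iff_mem,
      List.contains_iff_mem, List.contains_iff_mem] at h
    have hsw : ∀ s : Bool, sideB s [i, j] = true → sideB s [j, i] = true := by
      intro s hs
      unfold sideB at hs ⊢
      simp only [List.all_cons, List.all_nil, Bool.and_true] at hs ⊢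
      rw [Bool.and_comm]; exact hs
    rcases h with ⟨hs, h | h⟩ | h | h
    · exact rawEq hs (hsw _ hs) h
    · intro v hv; exact (rawEq (hsw _ hs) hs h v hv).symm
    · exact tt_of_comp Y (use gB h)
    · intro v hv; exact (tt_of_comp Y (use gB h) v hv).symm
  · have hm' : m = 3 := Nat.eq_of_beq_eq_true hm
    subst hm'
    refine cox3 Y (sq1 i i1 i2) (sq1 j j1 j2) ?_
    rw [Bool.or_eq_true, List.contains_iff_mem, List.contains_iff_mem] at h
    rcases h with h | h
    · exact tt_of_comp Y (use gB h)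
    · intro v hv; exact (tt_of_comp Y (use gB h) v hv).symm

/-- all pairs of letters -/
def prs : List (ℕ × ℕ × ℕ) := [(12, 11, 3), (12, 1, 2), (12, 2, 2), (12, 3, 2), (12, 4, 2), (12, 5, 2), (12, 6, 2), (12, 7, 2), (12, 8, 2), (12, 9, 2), (12, 10, 2), (11, 1, 3), (11, 2, 2), (11, 3, 2), (11, 4, 2), (11, 5, 2), (11, 6, 2), (11, 7, 2), (11, 8, 2), (11, 9, 2), (11, 10, 2), (1, 2, 3), (1, 3, 2), (1, 4, 2), (1, 5, 2), (1, 6, 2), (1, 7, 2), (1, 8, 2), (1, 9, 2), (1, 10, 2), (2, 3, 3), (2, 4, 2), (2, 5, 2), (2, 6, 2), (2, 7, 2), (2, 8, 2), (2, 9, 2), (2, 10, 2), (3, 4, 3), (3, 5, 2), (3, 6, 2), (3, 7, 2), (3, 8, 2), (3, 9, 2), (3, 10, 2), (4, 5, 3), (4, 6, 2), (4, 7, 2), (4, 8, 2), (4, 9, 3), (4, 10, 2), (5, 6, 3), (5, 7, 2), (5, 8, 2), (5, 9, 2), (5, 10, 2), (6, 7, 3), (6, 8, 2), (6, 9, 2), (6, 10, 2), (7, 8, 3), (7, 9, 2), (7, 10, 2), (8, 9, 2), (8, 10, 2), (9, 10, 3)]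

theorem prs_ok : prs.all okP = true := by decide +kernel

theorem rels_eq : F24R.rels = (prs.map fun p => coxW p.1 p.2.1 p.2.2) ++
    [[12] ++ powW [1, 2, 3, 4, 5, 6, 9] 9, powW [4, 3, 2, 1, 11, 12, 4, 5, 6, 7, 8, 4, 9, 10] 17] := by
  decide +kernel

/-- letters are small -/
def lt13 (w : List ℕ) : Bool := w.all fun y => Nat.ble 1 y && Nat.blt y 13

theorem lt13_sound {w : List ℕ} (h : lt13 w = true) : ∀ y ∈ w, 1 ≤ y ∧ y < 13 := by
  intro y hy
  unfold lt13 at h
  rw [List.all_eq_true] at h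
  have := h y hy
  rw [Bool.and_eq_true, Nat.ble_eq, Nat.blt_eq] at this
  exact this

theorem cox_P {p : ℕ × ℕ × ℕ} (hp : p ∈ prs) : ev P (coxW p.1 p.2.1 p.2.2) = 1 := by
  have h0 := prs_ok
  rw [List.all_eq_true] at h0
  refine ev_PP_one Y ht ?_ (okP_sound (h0 p hp))
  have h1 : (prs.all fun p => lt13 (coxW p.1 p.2.1 p.2.2)) = true := by decide +kernel
  rw [List.all_eq_true] at h1
  exact lt13_sound (h1 p hp)

theorem sq_P (y : ℕ) (h1 : 1 ≤ y) (h2 : y < 13) : P y * P y = 1 := by
  have h3 : ev P [y, y] = 1 := ev_PP_one Y ht (w := [y, y]) (by intro z hz; simp at hz; subst hz; exact ⟨h1, h2⟩) (sq1 y h1 h2)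
  rw [ev_cons, ev_cons, ev_nil, mul_one] at h3
  exact h3

theorem comm_P {i j : ℕ} (hi : 1 ≤ i ∧ i < 13) (hj : 1 ≤ j ∧ j < 13) (h : (prs.contains (i, j, 2) || prs.contains (j, i, 2)) = true) :
    P i * P j = P j * P i := by
  rw [Bool.or_eq_true, List.contains_iff_mem, List.contains_iff_mem] at h
  have ei : (P i)⁻¹ = P i := inv_eq_of_mul_eq_one_left (sq_P i hi.1 hi.2)
  have ej : (P j)⁻¹ = P j := inv_eq_of_mul_eq_one_left (sq_P j hj.1 hj.2)
  have key : (P i * P j) ^ 2 = 1 := by
    rcases h with h | h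
    · rw [← ev_coxW]; exact cox_P h
    · exact pow_swap _ _ _ (by rw [← ev_coxW]; exact cox_P h)
  rw [pow_two] at key
  rw [eq_inv_of_mul_eq_one_left key, mul_inv_rev, ei, ej]

theorem conj9 {G : Type*} [Group G] {a b c d e f h l : G} (ca : c * a = a * c) (da : d * a = a * d) (ea : e * a = a * e)
    (fa : f * a = a * f) (ha : h * a = a * h) (db : d * b = b * d) (eb : e * b = b * e) (fb : f * b = b * f)
    (hb : h * b = b * h) (ec : e * c = c * e) (fc : f * c = c * f) (hc : h * c = c * h) (fh : f * h = h * f)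
    (fd : f * d = d * f) (la : l * a = a * l) (lb : l * b = b * l) (lc : l * c = c * l) (ld : l * d = d * l)
    (h9 : (a * c * e * h * b * d * f) ^ 9 = l) : (a * b * c * d * e * f * h) ^ 9 = l := by
  have L1 : ∀ {p q : G}, p * q = q * p → ∀ z, p * (q * z) = q * (p * z) := by
    intro p q hpq z; rw [← mul_assoc, hpq, mul_assoc]
  have k1 : d * (e * (f * (h * (a * (b * (c * (a * (b * d)))))))) = a * (b * (d * (a * (c * (e * (h * (b * (d * f)))))))) := by
    rw [L1 ha, L1 fa, L1 ea, L1 da, L1 hb, L1 fb, L1 eb, L1 db, L1 hc, L1 fc, L1 ec, L1 ha, L1 fa, L1 ea, L1 ca, L1 fh, L1 fb, fd]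
  have key : a * b * c * d * e * f * h * (a * b * c * a * b * d) = a * b * c * a * b * d * (a * c * e * h * b * d * f) := by
    simp only [mul_assoc]
    rw [k1]
  have key2 : a * b * c * d * e * f * h = (a * b * c * a * b * d) * (a * c * e * h * b * d * f) * (a * b * c * a * b * d)⁻¹ :=
    eq_mul_inv_of_mul_eq key
  have hl : Commute (a * b * c * a * b * d) l := by
    have c1 : Commute a l := la.symm
    have c2 : Commute b l := lb.symm
    have c3 : Commute c l := lc.symm
    have c4 : Commute d l := ld.symm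
    exact ((((c1.mul_left c2).mul_left c3).mul_left c1).mul_left c2).mul_left c4
  rw [key2, conj_pow, h9, hl.eq, mul_inv_cancel_right]

theorem pos15 : ∀ v, v < 306936 → (net LL 15).pos v = tt LL SS [4, 3, 2, 1, 11, 12, 4, 5, 6, 7, 8, 4, 9, 10] v := by
  intro v hv
  have h1 := use gV (u := [15]) (w := comp SS false [4, 3, 2, 1, 11, 12, 4, 5, 6, 7, 8, 4, 9, 10]) (by decide +kernel) v hv
  have h2 := tr_comp (S := SS) Y [4, 3, 2, 1, 11, 12, 4, 5, 6, 7, 8, 4, 9, 10] false v hv
  have h3 : cl LL false v = v := rfl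
  rw [h3] at h2
  rw [← h2, ← h1]
  rfl

theorem w17 : ev P (powW [4, 3, 2, 1, 11, 12, 4, 5, 6, 7, 8, 4, 9, 10] 17) = 1 := by
  refine ev_PP_one Y ht (lt13_sound (by decide +kernel)) ?_
  intro v hv
  rw [tt_pow Y pos15 17 v hv]
  exact use gW (u := List.replicate 17 15) (w := []) (by decide +kernel) v hv

theorem c9 : ev P (powW [1, 3, 5, 9, 2, 4, 6] 9) = P 12 := by
  have h1 : ∀ v, v < 306936 → tt LL SS (powW [1, 3, 5, 9, 2, 4, 6] 9) v = tt LL SS [12] v :=
    tt_of_comp Y (use gC (by decide +kernel))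
  have h2 : ev P (powW [1, 3, 5, 9, 2, 4, 6] 9) = ev P [12] := by
    apply inv_injective
    ext i
    rw [P, ev_PP Y ht _ (lt13_sound (by decide +kernel)) i, ev_PP Y ht _ (lt13_sound (by decide +kernel)) i]
    exact h1 i i.2
  rw [h2, ev_cons, ev_nil, mul_one]

theorem l9 : ev P ([12] ++ powW [1, 2, 3, 4, 5, 6, 9] 9) = 1 := by
  rw [ev_append, ev_powW, ev_cons (w := []), ev_nil, mul_one]
  have h9 := c9
  rw [ev_powW] at h9
  simp only [ev_cons, ev_nil, mul_one] at h9 ⊢
  have := conj9 (a := P 1) (b := P 2) (c := P 3) (d := P 4) (e := P 5) (f := P 6) (h := P 9) (l := P 12)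
    (comm_P (by decide) (by decide) (by decide +kernel)) (comm_P (by decide) (by decide) (by decide +kernel))
    (comm_P (by decide) (by decide) (by decide +kernel)) (comm_P (by decide) (by decide) (by decide +kernel))
    (comm_P (by decide) (by decide) (by decide +kernel)) (comm_P (by decide) (by decide) (by decide +kernel))
    (comm_P (by decide) (by decide) (by decide +kernel)) (comm_P (by decide) (by decide) (by decide +kernel))
    (comm_P (by decide) (by decide) (by decide +kernel)) (comm_P (by decide) (by decide) (by decide +kernel))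
    (comm_P (by decide) (by decide) (by decide +kernel)) (comm_P (by decide) (by decide) (by decide +kernel))
    (comm_P (by decide) (by decide) (by decide +kernel)) (comm_P (by decide) (by decide) (by decide +kernel))
    (comm_P (by decide) (by decide) (by decide +kernel)) (comm_P (by decide) (by decide) (by decide +kernel))
    (comm_P (by decide) (by decide) (by decide +kernel)) (comm_P (by decide) (by decide) (by decide +kernel))
    (by simpa only [mul_assoc] using h9)
  simp only [mul_assoc] at this ⊢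
  rw [this]
  exact sq_P 12 (by decide) (by decide)

theorem rels_P : ∀ w ∈ F24R.rels, ev P w = 1 := by
  intro w hw
  rw [rels_eq, List.mem_append, List.mem_map, List.mem_cons, List.mem_singleton] at hw
  rcases hw with ⟨p, hp, rfl⟩ | rfl | rfl
  · exact cox_P hp
  · exact l9
  · exact w17

end Cfsg.Agent.H28.F24
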