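import Cfsg.Agent.H28_Xsp
import Cfsg.Agent.H1_Nilp

set_option autoImplicit false
set_option linter.all false
open Cfsg
open scoped commutatorElement

namespace Cfsg.Agent.H28.Large

open Cfsg.Agent.H28.Xsp

variable {G : Type*} [Group G] [Finite G]

theorem inf_eq_bot_of_odd {K P : Subgroup G} (hK : Odd (Nat.card K)) (hP : IsPGroup 2 P) :
    K ⊓ P = ⊥ := by
  haveI : Fact (Nat.Prime 2) := ⟨Nat.prime_two⟩
  apply Subgroup.eq_bot_of_card_eq
  have h1 : Nat.card (K ⊓ P : Subgroup G) ∣ Nat.card K :=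
    Subgroup.card_dvd_of_le inf_le_left
  obtain ⟨n, hn⟩ := (hP.to_le inf_le_right : IsPGroup 2 (K ⊓ P : Subgroup G)).exists_card_eq
  rw [hn] at h1 ⊢
  rcases n with _ | n
  · rfl
  · exfalso
    have h2 : 2 ∣ Nat.card K := (dvd_pow_self 2 (by omega)).trans h1
    rw [← Nat.not_even_iff_odd] at hK
    exact hK (even_iff_two_dvd.mpr h2)

/-- if `K` normalizes `P` and `P` normalizes `K`, `K ⊓ P = ⊥` then they commute. -/
theorem commute_of_normalize {K P : Subgroup G} (h : K ⊓ P = ⊥)
    {k x : G} (hk : k ∈ K) (hx : x ∈ P)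
    (h1 : k * x * k⁻¹ ∈ P) (h2 : x * k⁻¹ * x⁻¹ ∈ K) : k * x = x * k := by
  have h3 : k * x * k⁻¹ * x⁻¹ ∈ K ⊓ P := by
    rw [Subgroup.mem_inf]
    constructor
    · have : k * x * k⁻¹ * x⁻¹ = k * (x * k⁻¹ * x⁻¹) := by group
      rw [this]; exact K.mul_mem hk h2
    · exact P.mul_mem h1 (P.inv_mem hx)
  rw [h, Subgroup.mem_bot, mul_inv_eq_one, mul_inv_eq_iff_eq_mul] at h3
  exact h3

theorem centralizer_zpowers_eq (z : G) :
    Subgroup.centralizer ((Subgroup.zpowers z : Subgroup G) : Set G) =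
      Subgroup.centralizer ({z} : Set G) := by
  apply le_antisymm
  · apply Subgroup.centralizer_le
    intro x hx
    rw [Set.mem_singleton_iff] at hx
    subst hx
    exact Subgroup.mem_zpowers _
  · rw [Subgroup.le_centralizer_iff, Subgroup.zpowers_le, Subgroup.mem_centralizer_iff]
    intro x hx
    exact Subgroup.mem_centralizer_singleton_iff.mp hx

/-- The working form of the hypotheses: `Q` extraspecial with centre `⟨z⟩`, `C(Q) = ⟨z⟩`, `C(z) ≤ N(Q)`. -/
structure Pre (Q : Subgroup G) (z : G) : Prop extends Xsp Q z where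
  cent : Subgroup.centralizer (Q : Set G) = Subgroup.zpowers z
  norm : Subgroup.centralizer ({z} : Set G) ≤ Subgroup.normalizer (Q : Set G)
  nc : ∃ x ∈ Q, ∃ y ∈ Q, x * y ≠ y * x

namespace Pre

variable {Q : Subgroup G} {z : G}

theorem exists_of (hL1 : Cfsg.IsExtraspecial 2 ↥Q)
    (hL2 : Subgroup.centralizer (Q : Set G) = ((Subgroup.center ↥Q).map Q.subtype))
    (hL3 : Subgroup.centralizer (((Subgroup.center ↥Q).map Q.subtype) : Set G) ≤
      Subgroup.normalizer (Q : Set G)) : ∃ z, Pre Q z := by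
  obtain ⟨z, h⟩ := Xsp.exists_of_isExtraspecial hL1
  refine ⟨z, ⟨h, ?_, ?_, Xsp.not_comm_of_isExtraspecial hL1⟩⟩
  · rw [hL2, h.center_map]
  · rwa [h.center_map, centralizer_zpowers_eq] at hL3

theorem of_large (hQ : IsLargeExtraspecial Q) : ∃ z, Pre Q z := exists_of hQ.1 hQ.2.1 hQ.2.2.1

theorem isExtra (h : Pre Q z) : IsExtraspecial 2 ↥Q := h.toXsp.isExtraspecial h.nc

/-- it suffices to show odd order subgroups normalized by `Q` centralize `z`. -/
theorem large (h : Pre Q z)
    (hK : ∀ K : Subgroup G, Odd (Nat.card K) → Q ≤ Subgroup.normalizer (K : Set G) →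
      K ≤ Subgroup.centralizer ({z} : Set G)) : IsLargeExtraspecial Q := by
  refine ⟨h.isExtra, ?_, ?_, ?_⟩
  · rw [h.cent, h.center_map]
  · rw [h.center_map, centralizer_zpowers_eq]; exact h.norm
  · intro K hKodd hQK
    have hKz := hK K hKodd hQK
    have hKQ : K ≤ Subgroup.centralizer (Q : Set G) := by
      intro k hk
      rw [Subgroup.mem_centralizer_iff]
      intro q hq
      have hkN := h.norm (hKz hk)
      exact (commute_of_normalize (inf_eq_bot_of_odd hKodd h.isPGroup) hk hq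
        ((Subgroup.mem_normalizer_iff.mp hkN q).mp hq)
        ((Subgroup.mem_normalizer_iff.mp (hQK hq) k⁻¹).mp (K.inv_mem hk))).symm
    rw [h.cent] at hKQ
    apply Subgroup.eq_bot_of_card_eq
    have h1 : Nat.card K ∣ 2 := by
      rw [← h.card_zpowers]; exact Subgroup.card_dvd_of_le hKQ
    rcases (Nat.dvd_prime Nat.prime_two).mp h1 with h2 | h2
    · exact h2
    · rw [h2] at hKodd
      exact absurd hKodd (by decide)

theorem conj_mem_of_comm (h : Pre Q z) {c x : G} (hc : c * z = z * c) (hx : x ∈ Q) :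
    c * x * c⁻¹ ∈ Q :=
  (Subgroup.mem_normalizer_iff.mp (h.norm (Subgroup.mem_centralizer_singleton_iff.mpr hc)) x).mp hx

theorem norm_eq (h : Pre Q z) : Subgroup.normalizer (Q : Set G) = Subgroup.centralizer ({z} : Set G) := by
  apply le_antisymm _ h.norm
  intro n hn
  rw [Subgroup.mem_normalizer_iff] at hn
  rw [Subgroup.mem_centralizer_singleton_iff, ← mul_inv_eq_iff_eq_mul]
  have h1 : n * z * n⁻¹ = 1 ∨ n * z * n⁻¹ = z := by
    apply h.cen _ ((hn z).mp h.mem)
    intro y hy
    have h2 : n⁻¹ * y * n ∈ Q := by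
      rw [hn]; simpa [mul_assoc] using hy
    have h3 := h.zc _ h2
    calc n * z * n⁻¹ * y = n * (z * (n⁻¹ * y * n)) * n⁻¹ := by group
      _ = n * ((n⁻¹ * y * n) * z) * n⁻¹ := by rw [h3]
      _ = _ := by group
  rcases h1 with h1 | h1
  · exfalso
    apply h.ne
    rw [mul_inv_eq_iff_eq_mul, one_mul] at h1
    exact (mul_eq_left (a := n)).mp h1
  · exact h1

theorem conj (h : Pre Q z) (g : G) : Pre (Q.map (MulAut.conj g).toMonoidHom) (g * z * g⁻¹) where
  toXsp := h.toXsp.conj g
  cent := by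
    ext x
    rw [mem_zpowers_of_sq (h.toXsp.conj g).sq]
    have key : x ∈ Subgroup.centralizer ((Q.map (MulAut.conj g).toMonoidHom : Subgroup G) : Set G) ↔
        g⁻¹ * x * g ∈ Subgroup.centralizer (Q : Set G) := by
      rw [Subgroup.mem_centralizer_iff, Subgroup.mem_centralizer_iff]
      constructor
      · intro hx q hq
        have := hx (g * q * g⁻¹) ⟨q, hq, rfl⟩
        calc q * (g⁻¹ * x * g) = g⁻¹ * ((g * q * g⁻¹) * x) * g := by group
          _ = g⁻¹ * (x * (g * q * g⁻¹)) * g := by rw [this]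
          _ = _ := by group
      · rintro hx _ ⟨q, hq, rfl⟩
        have := hx q hq
        simp only [MulEquiv.toMonoidHom_eq_coe, MonoidHom.coe_coe, MulAut.conj_apply]
        calc (g * q * g⁻¹) * x = g * (q * (g⁻¹ * x * g)) * g⁻¹ := by group
          _ = g * ((g⁻¹ * x * g) * q) * g⁻¹ := by rw [this]
          _ = _ := by group
    rw [key, h.cent, mem_zpowers_of_sq h.sq]
    constructor
    · rintro (h1 | h1)
      · left
        have : x = g * (g⁻¹ * x * g) * g⁻¹ := by group
        rw [this, h1]; group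
      · right
        have : x = g * (g⁻¹ * x * g) * g⁻¹ := by group
        rw [this, h1]
    · rintro (rfl | rfl)
      · left; group
      · right; group
  norm := by
    intro c hc
    rw [Subgroup.mem_centralizer_singleton_iff] at hc
    have h1 : (g⁻¹ * c * g) * z = z * (g⁻¹ * c * g) := by
      calc (g⁻¹ * c * g) * z = g⁻¹ * (c * (g * z * g⁻¹)) * g := by group
        _ = g⁻¹ * ((g * z * g⁻¹) * c) * g := by rw [hc]
        _ = _ := by group
    have h2 := h.norm (Subgroup.mem_centralizer_singleton_iff.mpr h1)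
    rw [Subgroup.mem_normalizer_iff] at h2
    have hmem : ∀ y : G, y ∈ Q.map (MulAut.conj g).toMonoidHom ↔ g⁻¹ * y * g ∈ Q := by
      intro y
      constructor
      · rintro ⟨q, hq, rfl⟩
        simp only [MulEquiv.toMonoidHom_eq_coe, MonoidHom.coe_coe, MulAut.conj_apply]
        have : g⁻¹ * (g * q * g⁻¹) * g = q := by group
        rwa [this]
      · intro hy
        refine ⟨_, hy, ?_⟩
        simp only [MulEquiv.toMonoidHom_eq_coe, MonoidHom.coe_coe, MulAut.conj_apply]
        group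
    rw [Subgroup.mem_normalizer_iff]
    intro y
    rw [hmem, hmem, h2]
    have : g⁻¹ * c * g * (g⁻¹ * y * g) * (g⁻¹ * c * g)⁻¹ = g⁻¹ * (c * y * c⁻¹) * g := by group
    rw [this]
  nc := by
    obtain ⟨x, hx, y, hy, hxy⟩ := h.nc
    refine ⟨g * x * g⁻¹, ⟨x, hx, rfl⟩, g * y * g⁻¹, ⟨y, hy, rfl⟩, ?_⟩
    intro h1
    apply hxy
    have h2 : g * (x * y) * g⁻¹ = g * (y * x) * g⁻¹ := by
      calc g * (x * y) * g⁻¹ = g * x * g⁻¹ * (g * y * g⁻¹) := by group
        _ = _ := h1
        _ = _ := by group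
    exact mul_left_cancel (mul_right_cancel h2)

end Pre

end Cfsg.Agent.H28.Large
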