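import Cfsg.Agent.H28_Large
import Cfsg.Agent.S0058

set_option autoImplicit false
set_option linter.all false
open Cfsg
open scoped commutatorElement

namespace Cfsg.Agent.H28.Large

open Cfsg.Agent.H28.Xsp

variable {G : Type*} [Group G] [Finite G]

/-- elements of `Q` move noncentral `x` to `z x`. -/
theorem Pre.exists_move {Q : Subgroup G} {z : G} (h : Pre Q z) {x : G} (hx : x ∈ Q) (h1 : x ≠ 1)
    (h2 : x ≠ z) : ∃ q ∈ Q, q * x * q⁻¹ = z * x := by
  obtain ⟨y, hy, hxy⟩ := h.exists_not_comm hx h1 h2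
  exact ⟨y, hy, h.conj_eq_of_not_comm hy hx (fun h => hxy h.symm)⟩

theorem mem_map_conj {Q : Subgroup G} {g y : G} :
    y ∈ Q.map (MulAut.conj g).toMonoidHom ↔ g⁻¹ * y * g ∈ Q := by
  constructor
  · rintro ⟨q, hq, rfl⟩
    simp only [MulEquiv.toMonoidHom_eq_coe, MonoidHom.coe_coe, MulAut.conj_apply]
    have : g⁻¹ * (g * q * g⁻¹) * g = q := by group
    rwa [this]
  · intro hy
    refine ⟨_, hy, ?_⟩
    simp only [MulEquiv.toMonoidHom_eq_coe, MonoidHom.coe_coe, MulAut.conj_apply]
    group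

/-- conjugates of `Q` over the same conjugate of `z` agree. -/
theorem Pre.map_conj_eq {Q : Subgroup G} {z : G} (h : Pre Q z) {g k : G}
    (hgk : g * z * g⁻¹ = k * z * k⁻¹) :
    Q.map (MulAut.conj g).toMonoidHom = Q.map (MulAut.conj k).toMonoidHom := by
  ext y
  rw [mem_map_conj, mem_map_conj]
  have h1 : (k⁻¹ * g) * z = z * (k⁻¹ * g) := by
    calc (k⁻¹ * g) * z = k⁻¹ * (g * z * g⁻¹) * g := by group
      _ = k⁻¹ * (k * z * k⁻¹) * g := by rw [hgk]
      _ = _ := by group
  have h2 := h.norm (Subgroup.mem_centralizer_singleton_iff.mpr h1)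
  rw [Subgroup.mem_normalizer_iff] at h2
  rw [h2]
  have : k⁻¹ * g * (g⁻¹ * y * g) * (k⁻¹ * g)⁻¹ = k⁻¹ * y * k := by group
  rw [this]

/-- main symmetry lemma. -/
theorem Pre.sym {Q Q' : Subgroup G} {z x : G} (h : Pre Q z) (h' : Pre Q' x) (hx : x ∈ Q)
    (hcc : Nat.card Q' = Nat.card Q)
    (hQQ : ∀ k : G, k * z * k⁻¹ = x → Q.map (MulAut.conj k).toMonoidHom = Q') : z ∈ Q' := by
  by_contra hz
  have hxz : x ≠ z := by rintro rfl; exact hz h'.mem
  have hxx := h'.sq
  have hzz := h.sq
  have hx1 := h'.ne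
  have hzx : z * x = x * z := h.zc x hx
  have hzi : z⁻¹ = z := h.zinv
  have hxi : x⁻¹ = x := h'.zinv
  -- normalization facts
  have hPn : ∀ p ∈ Q, p * x = x * p → ∀ y ∈ Q', p * y * p⁻¹ ∈ Q' := fun p _ hpx y hy =>
    h'.conj_mem_of_comm hpx hy
  have hRn : ∀ r ∈ Q', r * z = z * r → ∀ y ∈ Q, r * y * r⁻¹ ∈ Q := fun r _ hrz y hy =>
    h.conj_mem_of_comm hrz hy
  -- z normalizes Q'
  have hzn : ∀ y ∈ Q', z * y * z⁻¹ ∈ Q' := hPn z h.mem hzx
  -- P centralizes E = Q ∩ Q', hence E = {1,x}
  have hE : ∀ e ∈ Q, e ∈ Q' → e = 1 ∨ e = x := by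
    intro e he he'
    have hc : ∀ p ∈ Q, p * x = x * p → p * e = e * p := by
      intro p hp hpx
      rcases h.conj_eq hp he with h1 | h1
      · rw [mul_inv_eq_iff_eq_mul] at h1; exact h1
      · exfalso
        apply hz
        have h2 := hPn p hp hpx e he'
        rw [h1] at h2
        have h3 := Q'.mul_mem h2 (Q'.inv_mem he')
        rwa [mul_inv_cancel_right] at h3
    -- e ∈ double centralizer of ⟨x,z⟩
    have hV : z ∈ Subgroup.closure ({x, z} : Set G) := Subgroup.subset_closure (by simp)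
    have hVQ : Subgroup.closure ({x, z} : Set G) ≤ Q := by
      rw [Subgroup.closure_le]
      intro y hy
      rcases hy with rfl | hy
      · exact hx
      · rw [Set.mem_singleton_iff] at hy; subst hy; exact h.mem
    have hdc := h.double_centralizer hV hVQ
    have heV : e ∈ Subgroup.closure ({x, z} : Set G) := by
      rw [← hdc, Subgroup.mem_inf, Subgroup.mem_centralizer_iff]
      refine ⟨he, ?_⟩
      intro p hp
      have hp' := Subgroup.mem_inf.mp hp
      apply hc p hp'.1
      exact (Subgroup.mem_centralizer_iff.mp hp'.2 x (Subgroup.subset_closure (by simp))).symm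
    have hcases : ∀ w ∈ Subgroup.closure ({x, z} : Set G), w = 1 ∨ w = x ∨ w = z ∨ w = z * x := by
      intro w hw
      induction hw using Subgroup.closure_induction with
      | mem y hy =>
        rcases hy with rfl | hy
        · right; left; rfl
        · rw [Set.mem_singleton_iff] at hy; subst hy; right; right; left; rfl
      | one => left; rfl
      | mul a b _ _ ha hb =>
        rcases ha with rfl | rfl | rfl | rfl <;> rcases hb with rfl | rfl | rfl | rfl
        · simp
        · simp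
        · simp
        · simp
        · simp
        · simp [hxx]
        · right; right; right; rw [hzx]
        · right; right; left; rw [hzx, ← mul_assoc, hxx, one_mul]
        · simp
        · simp
        · simp [hzz]
        · right; left; rw [← mul_assoc, hzz, one_mul]
        · simp
        · right; right; left; rw [mul_assoc, hxx, mul_one]
        · right; left; rw [mul_assoc, ← hzx, ← mul_assoc, hzz, one_mul]
        · left
          calc z * x * (z * x) = z * (x * z) * x := by group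
            _ = z * (z * x) * x := by rw [hzx]
            _ = (z * z) * (x * x) := by group
            _ = 1 := by rw [hzz, hxx, one_mul]
      | inv a _ ha =>
        rcases ha with rfl | rfl | rfl | rfl
        · simp
        · right; left; exact hxi
        · right; right; left; exact hzi
        · right; right; right; rw [mul_inv_rev, hxi, hzi, hzx]
    rcases hcases e heV with h1 | h1 | h1 | h1
    · exact Or.inl h1
    · exact Or.inr h1
    · exfalso; apply hz; rwa [← h1]
    · exfalso; apply hz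
      have h3 : z = e * x := by rw [h1, mul_assoc, hxx, mul_one]
      rw [h3]; exact Q'.mul_mem he' h'.mem
  -- [R,P] ≤ ⟨x⟩
  have hRP : ∀ r ∈ Q', r * z = z * r → ∀ p ∈ Q, p * x = x * p → p * r * p⁻¹ = r ∨ p * r * p⁻¹ = x * r := by
    intro r hr hrz p hp hpx
    have h1 : p * r * p⁻¹ * r⁻¹ ∈ Q := by
      have := hRn r hr hrz p⁻¹ (Q.inv_mem hp)
      have h2 : p * r * p⁻¹ * r⁻¹ = p * (r * p⁻¹ * r⁻¹) := by group
      rw [h2]; exact Q.mul_mem hp this
    have h2 : p * r * p⁻¹ * r⁻¹ ∈ Q' := Q'.mul_mem (hPn p hp hpx r hr) (Q'.inv_mem hr)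
    rcases hE _ h1 h2 with h3 | h3
    · left; exact mul_inv_eq_one.mp h3
    · right; exact mul_inv_eq_iff_eq_mul.mp h3
  -- no y ∈ Q' with y z y⁻¹ = x z
  have hno : ∀ y ∈ Q', y * z * y⁻¹ ≠ x * z := by
    intro y hy hyz
    obtain ⟨q, hq, hqx⟩ := h.exists_move hx hx1 hxz
    -- k = q⁻¹ y ... sends z to x
    have hqz : q * z * q⁻¹ = z := by rw [← h.zc q hq, mul_inv_cancel_right]
    have hyx : y * x * y⁻¹ = x := by rw [← h'.zc y hy, mul_inv_cancel_right]
    -- q (y z y⁻¹) q⁻¹ = q (x z) q⁻¹ = z x z = x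
    have hk : (q * y) * z * (q * y)⁻¹ = x := by
      calc (q * y) * z * (q * y)⁻¹ = q * (y * z * y⁻¹) * q⁻¹ := by group
        _ = q * (x * z) * q⁻¹ := by rw [hyz]
        _ = (q * x * q⁻¹) * (q * z * q⁻¹) := by group
        _ = z * x * z := by rw [hqx, hqz]
        _ = x * z * z := by rw [hzx]
        _ = x := by rw [mul_assoc, hzz, mul_one]
    have hQ' := hQQ _ hk
    apply hz
    rw [← hQ', mem_map_conj]
    -- (qy)⁻¹ z (qy) = y⁻¹ z y ∈ V ≤ Q
    have h1 : (q * y)⁻¹ * z * (q * y) = y⁻¹ * z * y := by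
      have : q⁻¹ * z * q = z := by
        calc q⁻¹ * z * q = q⁻¹ * (q * z * q⁻¹) * q := by rw [hqz]
          _ = z := by group
      calc (q * y)⁻¹ * z * (q * y) = y⁻¹ * (q⁻¹ * z * q) * y := by group
        _ = _ := by rw [this]
    have h2 : y⁻¹ * z * y = x * z := by
      have h3 : y⁻¹ * x * y = x := by
        calc y⁻¹ * x * y = y⁻¹ * (y * x * y⁻¹) * y := by rw [hyx]
          _ = x := by group
      have h4 : y⁻¹ * (x * z) * y = z := by rw [← hyz]; group
      have h5 : y⁻¹ * (x * z) * y = (y⁻¹ * x * y) * (y⁻¹ * z * y) := by group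
      rw [h4, h3] at h5
      calc y⁻¹ * z * y = (x * x) * (y⁻¹ * z * y) := by rw [hxx, one_mul]
        _ = x * (x * (y⁻¹ * z * y)) := by group
        _ = x * z := by rw [← h5]
    rw [h1, h2]
    exact Q.mul_mem hx h.mem
  -- S = {[y,z]}
  set R : Subgroup G := Q' ⊓ Subgroup.centralizer ({z} : Set G) with hR
  have hRmem : ∀ r, r ∈ R ↔ r ∈ Q' ∧ r * z = z * r := by
    intro r; rw [hR, Subgroup.mem_inf, Subgroup.mem_centralizer_singleton_iff]
  have hxR : x ∈ R := (hRmem x).mpr ⟨h'.mem, hzx.symm⟩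
  have hRQ' : R ≤ Q' := inf_le_left
  set T : Subgroup G := Q' ⊓ Subgroup.centralizer (R : Set G) with hT
  have hTmem : ∀ t, t ∈ T ↔ t ∈ Q' ∧ ∀ r ∈ R, r * t = t * r := by
    intro t; rw [hT, Subgroup.mem_inf, Subgroup.mem_centralizer_iff]; rfl
  have hdual : Nat.card R * Nat.card T = 2 * Nat.card Q' := h'.duality hxR hRQ'
  -- commutators [y,z] = y z y⁻¹ z⁻¹ are in T
  have hS : ∀ y ∈ Q', y * z * y⁻¹ * z⁻¹ ∈ T := by
    intro y hy
    rw [hTmem]
    have h1 : y * z * y⁻¹ * z⁻¹ = y * (z * y⁻¹ * z⁻¹) := by group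
    refine ⟨by rw [h1]; exact Q'.mul_mem hy (hzn _ (Q'.inv_mem hy)), ?_⟩
    intro r hr
    obtain ⟨hrQ, hrz⟩ := (hRmem r).mp hr
    -- r y r⁻¹ = e y with e central commuting with z
    rcases h'.conj_eq hrQ hy with h2 | h2
    · have h3 : r * y = y * r := mul_inv_eq_iff_eq_mul.mp h2
      have h4 : r * y⁻¹ = y⁻¹ * r := by
        calc r * y⁻¹ = y⁻¹ * (y * r) * y⁻¹ := by group
          _ = y⁻¹ * (r * y) * y⁻¹ := by rw [h3]
          _ = _ := by group
      have h5 : r * z⁻¹ = z⁻¹ * r := by rw [hzi]; exact hrz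
      calc r * (y * z * y⁻¹ * z⁻¹) = (r * y) * z * y⁻¹ * z⁻¹ := by group
        _ = y * (r * z) * y⁻¹ * z⁻¹ := by rw [h3]; group
        _ = y * z * (r * y⁻¹) * z⁻¹ := by rw [hrz]; group
        _ = y * z * y⁻¹ * (r * z⁻¹) := by rw [h4]; group
        _ = _ := by rw [h5]; group
    · have h3 : r * y = x * y * r := mul_inv_eq_iff_eq_mul.mp h2
      have h4 : r * y⁻¹ = y⁻¹ * x * r := by
        have h6 : r * y⁻¹ * r⁻¹ = (x * y)⁻¹ := by rw [← h2]; group
        rw [mul_inv_rev, hxi] at h6
        exact mul_inv_eq_iff_eq_mul.mp h6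
      have h5 : r * z⁻¹ = z⁻¹ * r := by rw [hzi]; exact hrz
      have h7 : x * y = y * x := h'.zc y hy
      calc r * (y * z * y⁻¹ * z⁻¹) = (r * y) * z * y⁻¹ * z⁻¹ := by group
        _ = x * y * (r * z) * y⁻¹ * z⁻¹ := by rw [h3]; group
        _ = x * y * z * (r * y⁻¹) * z⁻¹ := by rw [hrz]; group
        _ = x * y * z * y⁻¹ * x * (r * z⁻¹) := by rw [h4]; group
        _ = y * x * z * y⁻¹ * x * (z⁻¹ * r) := by rw [h5, h7]
        _ = y * (x * z) * y⁻¹ * x * z⁻¹ * r := by group
        _ = y * (z * x) * y⁻¹ * x * z⁻¹ * r := by rw [hzx]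
        _ = y * z * (x * y⁻¹) * x * z⁻¹ * r := by group
        _ = y * z * (y⁻¹ * x) * x * z⁻¹ * r := by rw [h'.zc _ (Q'.inv_mem hy)]
        _ = y * z * y⁻¹ * (x * x) * z⁻¹ * r := by group
        _ = _ := by rw [hxx, mul_one]
  -- [y,z] commutes with z
  have hSz : ∀ y ∈ Q', y * z * y⁻¹ * z⁻¹ ∈ R := by
    intro y hy
    set s := y * z * y⁻¹ * z⁻¹ with hs
    have hsT := (hTmem s).mp (hS y hy)
    rw [hRmem]
    refine ⟨hsT.1, ?_⟩
    -- z s z⁻¹ = s⁻¹
    have hinv : z * s * z⁻¹ = s⁻¹ := by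
      have : s⁻¹ = z * y * z⁻¹ * y⁻¹ := by rw [hs]; group
      rw [this, hs]
      calc z * (y * z * y⁻¹ * z⁻¹) * z⁻¹ = z * y * z * y⁻¹ * (z⁻¹ * z⁻¹) := by group
        _ = z * y * z * y⁻¹ := by rw [← mul_inv_rev, hzz, inv_one, mul_one]
        _ = z * y * z⁻¹ * y⁻¹ := by rw [hzi]
    rcases h'.sqr s hsT.1 with h1 | h1
    · have h2 : s⁻¹ = s := inv_eq_of_mul_eq_one_left h1
      rw [h2, mul_inv_eq_iff_eq_mul] at hinv
      exact hinv.symm
    · exfalso
      -- s⁻¹ = s x, so s z s⁻¹ = x z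
      have h2 : s⁻¹ = x * s := by
        have h4 : x * s = s * s * s := by rw [h1]
        have h5 : x * s * s = 1 := by rw [mul_assoc, h1, hxx]
        exact (eq_inv_of_mul_eq_one_left h5).symm
      apply hno s hsT.1
      have h3 : z * s = s⁻¹ * z := by rw [← hinv]; group
      have h4 : s * z = z * s⁻¹ := by
        calc s * z = z * (z * s * z) := by
              calc s * z = (z * z) * s * z := by rw [hzz, one_mul]
                _ = _ := by group
          _ = z * s⁻¹ := by rw [← hinv, hzi]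
      rw [mul_inv_eq_iff_eq_mul, h4, h2, ← mul_assoc, hzx]
  -- counting: T ⊆ S ∪ Sx, hence T ≤ R
  have hTR : T ≤ R := by
    -- the map Q' ⧸ R → T
    -- define function f : Q' → T, y ↦ [y,z]; fibers are cosets of R
    classical
    -- image set
    let f : ↥Q' → G := fun y => (y : G) * z * (y : G)⁻¹ * z⁻¹
    have hf : ∀ a b : ↥Q', f a = f b ↔ (a : G)⁻¹ * b ∈ R := by
      intro a b
      rw [hRmem]
      constructor
      · intro hab
        refine ⟨Q'.mul_mem (Q'.inv_mem a.2) b.2, ?_⟩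
        have h1 : (a : G) * z * (a : G)⁻¹ = (b : G) * z * (b : G)⁻¹ := mul_right_cancel hab
        calc (a : G)⁻¹ * b * z = (a : G)⁻¹ * ((b : G) * z * (b : G)⁻¹) * b := by group
          _ = (a : G)⁻¹ * ((a : G) * z * (a : G)⁻¹) * b := by rw [h1]
          _ = _ := by group
      · rintro ⟨_, hab⟩
        have h1 : (a : G) * z * (a : G)⁻¹ = (b : G) * z * (b : G)⁻¹ := by
          calc (a : G) * z * (a : G)⁻¹ = (a : G) * (z * ((a : G)⁻¹ * b)) * (b : G)⁻¹ := by group
            _ = (a : G) * (((a : G)⁻¹ * b) * z) * (b : G)⁻¹ := by rw [hab]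
            _ = _ := by group
        show (a : G) * z * (a : G)⁻¹ * z⁻¹ = (b : G) * z * (b : G)⁻¹ * z⁻¹
        rw [h1]
    -- quotient version
    let fq : ↥Q' ⧸ (R.subgroupOf Q') → G :=
      Quotient.lift f (by
        intro a b hab
        rw [hf]
        have := QuotientGroup.leftRel_apply.mp hab
        exact Subgroup.mem_subgroupOf.mp this)
    have hfq_inj : Function.Injective fq := by
      intro a b
      refine Quotient.inductionOn₂ a b ?_
      intro a b hab
      apply Quotient.sound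
      apply QuotientGroup.leftRel_apply.mpr
      rw [Subgroup.mem_subgroupOf]
      exact (hf a b).mp hab
    -- g : (Q'/R) × Bool → T
    let gm : (↥Q' ⧸ (R.subgroupOf Q')) × Bool → ↥T := fun p =>
      ⟨(if p.2 then x else 1) * fq p.1, by
        apply T.mul_mem
        · split
          · rw [hTmem]
            refine ⟨h'.mem, fun r hr => (h'.zc r (hRQ' hr)).symm⟩
          · exact T.one_mem
        · refine Quotient.inductionOn p.1 ?_
          intro y
          exact hS y y.2⟩
    have hxf : ∀ a b : ↥Q', x * f a ≠ f b := by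
      intro a b hab
      -- x a z a⁻¹ z⁻¹ = b z b⁻¹ z⁻¹
      have h1 : x * ((a : G) * z * (a : G)⁻¹) = (b : G) * z * (b : G)⁻¹ := by
        have : x * ((a : G) * z * (a : G)⁻¹) * z⁻¹ = (b : G) * z * (b : G)⁻¹ * z⁻¹ := by
          rw [mul_assoc]; exact hab
        exact mul_right_cancel this
      apply hno ((a : G)⁻¹ * b) (Q'.mul_mem (Q'.inv_mem a.2) b.2)
      calc (a : G)⁻¹ * b * z * ((a : G)⁻¹ * b)⁻¹ = (a : G)⁻¹ * ((b : G) * z * (b : G)⁻¹) * a := by group
        _ = (a : G)⁻¹ * (x * ((a : G) * z * (a : G)⁻¹)) * a := by rw [h1]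
        _ = ((a : G)⁻¹ * x) * a * z := by group
        _ = (x * (a : G)⁻¹) * a * z := by rw [h'.zc _ (Q'.inv_mem a.2)]
        _ = _ := by group
    have hgm_inj : Function.Injective gm := by
      rintro ⟨a, i⟩ ⟨b, j⟩ hab
      have hab' : (if i then x else 1) * fq a = (if j then x else 1) * fq b :=
        congrArg Subtype.val hab
      revert hab'
      refine Quotient.inductionOn₂ a b ?_
      intro a b hab'
      change (if i then x else 1) * f a = (if j then x else 1) * f b at hab'
      cases i <;> cases j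
      · simp only [Bool.false_eq_true, if_false, one_mul] at hab'
        rw [Prod.mk.injEq]
        exact ⟨hfq_inj hab', rfl⟩
      · simp only [Bool.false_eq_true, if_false, one_mul, if_true] at hab'
        exact absurd hab'.symm (hxf b a)
      · simp only [Bool.false_eq_true, if_false, one_mul, if_true] at hab'
        exact absurd hab' (hxf a b)
      · simp only [if_true] at hab'
        rw [Prod.mk.injEq]
        exact ⟨hfq_inj (mul_left_cancel hab'), rfl⟩
    have hcardeq : Nat.card ((↥Q' ⧸ (R.subgroupOf Q')) × Bool) = Nat.card T := by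
      rw [Nat.card_prod, Nat.card_eq_fintype_card (α := Bool), Fintype.card_bool]
      have h1 : Nat.card (↥Q' ⧸ (R.subgroupOf Q')) = R.relIndex Q' := rfl
      rw [h1]
      have h2 := H2.Card.card_mul_relIndex hRQ'
      have hpos : 0 < Nat.card R := Nat.card_pos
      apply Nat.eq_of_mul_eq_mul_left hpos
      rw [hdual, ← h2]; ring
    have hgm_surj : Function.Surjective gm := by
      have hbij := (Nat.bijective_iff_injective_and_card gm).mpr ⟨hgm_inj, hcardeq⟩
      exact hbij.2
    intro t ht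
    obtain ⟨⟨a, i⟩, hai⟩ := hgm_surj ⟨t, ht⟩
    have h1 : (if i then x else 1) * fq a = t := congrArg Subtype.val hai
    rw [← h1]
    apply R.mul_mem
    · split
      · exact hxR
      · exact R.one_mem
    · refine Quotient.inductionOn a ?_
      intro y
      exact hSz y y.2
  -- P moves elements of Q' by elements of T
  have hPT : ∀ p ∈ Q, p * x = x * p → ∀ y ∈ Q', ∃ t ∈ T, p * y * p⁻¹ = t * y := by
    intro p hp hpx y hy
    refine ⟨p * y * p⁻¹ * y⁻¹, ?_, by group⟩
    rw [hTmem]
    refine ⟨Q'.mul_mem (hPn p hp hpx y hy) (Q'.inv_mem hy), ?_⟩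
    intro r hr
    obtain ⟨hrQ, hrz⟩ := (hRmem r).mp hr
    -- p⁻¹ r p = r or x r
    have hpx' : p⁻¹ * x = x * p⁻¹ := by
      calc p⁻¹ * x = p⁻¹ * (x * p) * p⁻¹ := by group
        _ = p⁻¹ * (p * x) * p⁻¹ := by rw [hpx]
        _ = _ := by group
    have h1 : p⁻¹ * r * p = r ∨ p⁻¹ * r * p = x * r := by
      have := hRP r hrQ hrz p⁻¹ (Q.inv_mem hp) hpx'
      simpa using this
    -- commutation of r with y up to x
    -- r (p y p⁻¹ y⁻¹) r⁻¹ = p ((p⁻¹ r p) y (p⁻¹ r p)⁻¹) p⁻¹ (r y r⁻¹)⁻¹
    have hkey : r * (p * y * p⁻¹ * y⁻¹) * r⁻¹ =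
        p * ((p⁻¹ * r * p) * y * (p⁻¹ * r * p)⁻¹) * p⁻¹ * (r * y * r⁻¹)⁻¹ := by group
    have hry : (p⁻¹ * r * p) * y * (p⁻¹ * r * p)⁻¹ = r * y * r⁻¹ := by
      rcases h1 with h1 | h1
      · rw [h1]
      · rw [h1]
        calc x * r * y * (x * r)⁻¹ = x * (r * y * r⁻¹) * x⁻¹ := by group
          _ = (r * y * r⁻¹) * x * x⁻¹ := by
              rw [h'.zc _ (Q'.mul_mem (Q'.mul_mem hrQ hy) (Q'.inv_mem hrQ))]
          _ = _ := by group
    rw [← mul_inv_eq_iff_eq_mul, hkey, hry]
    rcases h'.conj_eq hrQ hy with h2 | h2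
    · rw [h2]
    · rw [h2]
      calc p * (x * y) * p⁻¹ * (x * y)⁻¹ = (p * x) * y * p⁻¹ * (x * y)⁻¹ := by group
        _ = (x * p) * y * p⁻¹ * (y⁻¹ * x⁻¹) := by rw [hpx, mul_inv_rev]
        _ = x * (p * y * p⁻¹ * y⁻¹) * x⁻¹ := by group
        _ = (p * y * p⁻¹ * y⁻¹) * x * x⁻¹ := by
            rw [h'.zc _ (Q'.mul_mem (hPn p hp hpx y hy) (Q'.inv_mem hy))]
        _ = _ := by group
  -- z does not centralize Q'
  have hzcQ : ∃ y ∈ Q', y ∉ R := by
    by_contra hcon
    push Not at hcon
    have hzc : z ∈ Subgroup.centralizer (Q' : Set G) := by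
      rw [Subgroup.mem_centralizer_iff]
      intro y hy
      exact ((hRmem y).mp (hcon y hy)).2
    rw [h'.cent, mem_zpowers_of_sq hxx] at hzc
    rcases hzc with h1 | h1
    · exact h.ne h1
    · exact hxz h1.symm
  -- P nonabelian
  have hPna : ∃ p ∈ Q, ∃ p' ∈ Q, p * x = x * p ∧ p' * x = x * p' ∧ p * p' ≠ p' * p := by
    by_contra hcon
    push Not at hcon
    -- P = C_Q(x) is abelian; contains z, x; double centralizer
    have hP : Nat.card Q ≤ 2 * Nat.card (Q ⊓ Subgroup.centralizer ({x} : Set G) : Subgroup G) :=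
      h.card_le_two_mul le_rfl hx
    set P : Subgroup G := Q ⊓ Subgroup.centralizer ({x} : Set G) with hPdef
    have hzP : z ∈ P := by
      rw [hPdef, Subgroup.mem_inf, Subgroup.mem_centralizer_singleton_iff]; exact ⟨h.mem, hzx⟩
    have hd := h.duality hzP inf_le_left
    have hPle : P ≤ Q ⊓ Subgroup.centralizer (P : Set G) := by
      intro p hp
      have hp' := Subgroup.mem_inf.mp hp
      rw [Subgroup.mem_inf, Subgroup.mem_centralizer_iff]
      refine ⟨hp'.1, ?_⟩
      intro q hq
      have hq' := Subgroup.mem_inf.mp hq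
      exact hcon q hq'.1 p hp'.1 (Subgroup.mem_centralizer_singleton_iff.mp hq'.2)
        (Subgroup.mem_centralizer_singleton_iff.mp hp'.2)
    have hPle' := Nat.card_le_card_of_injective _ (Subgroup.inclusion_injective hPle)
    -- |P|² ≤ 2|Q| ≤ 4 |P| → |P| ≤ 4 → |Q| ≤ 8
    have h1 : Nat.card P * Nat.card P ≤ 4 * Nat.card P := by
      calc Nat.card P * Nat.card P ≤ Nat.card P * Nat.card (Q ⊓ Subgroup.centralizer (P : Set G) : Subgroup G) :=
            Nat.mul_le_mul_left _ hPle'
        _ = 2 * Nat.card Q := hd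
        _ ≤ 4 * Nat.card P := by omega
    have hpos : 0 < Nat.card P := Nat.card_pos
    have h2 : Nat.card P ≤ 4 := Nat.le_of_mul_le_mul_right h1 hpos
    have hQ8 : Nat.card Q' ≤ 8 := by omega
    -- small case
    obtain ⟨y, hy, hyR⟩ := hzcQ
    set s := y * z * y⁻¹ * z⁻¹ with hs
    have hsT := (hTmem s).mp (hS y hy)
    obtain ⟨hsQ, hsz⟩ := (hRmem s).mp (hSz y hy)
    -- s² = 1
    have hsz' : s * z = y * z * y⁻¹ := by rw [hs]; group
    have hss : s * s = 1 := by
      have h3 : (s * z) * (s * z) = 1 := by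
        rw [hsz']
        calc y * z * y⁻¹ * (y * z * y⁻¹) = y * (z * z) * y⁻¹ := by group
          _ = 1 := by rw [hzz]; group
      calc s * s = s * (z * z) * s := by rw [hzz, mul_one]
        _ = (s * z) * (z * s) := by group
        _ = 1 := by rw [← hsz, h3]
    -- z y z⁻¹ = s y
    have hsi : s⁻¹ = s := inv_eq_of_mul_eq_one_left hss
    have hzy : z * y * z⁻¹ = s * y := by
      have h3 : s⁻¹ * y = z * y * z⁻¹ := by rw [hs]; group
      rw [← h3, hsi]
    have hys : y * s = s * y := by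
      have h3 : (s * y) * (s * y) = y * y := by
        rw [← hzy]
        calc z * y * z⁻¹ * (z * y * z⁻¹) = z * (y * y) * z⁻¹ := by group
          _ = y * y := by
            rcases h'.sqr y hy with h4 | h4
            · rw [h4]; group
            · rw [h4, hzx, mul_inv_cancel_right]
      have h4 : s * y * s = y := by
        have h5 : (s * y * s) * y = y * y := by rw [← h3]; group
        exact mul_right_cancel h5
      calc y * s = (s * s) * (y * s) := by rw [hss, one_mul]
        _ = s * (s * y * s) := by group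
        _ = s * y := by rw [h4]
    -- C_{Q'}(s) = Q'
    set C : Subgroup G := Q' ⊓ Subgroup.centralizer ({s} : Set G) with hC
    have hRC : R < C := by
      apply lt_of_le_of_ne
      · intro r hr
        rw [hC, Subgroup.mem_inf, Subgroup.mem_centralizer_singleton_iff]
        exact ⟨hRQ' hr, hsT.2 r hr⟩
      · intro h3
        apply hyR
        rw [h3, hC, Subgroup.mem_inf, Subgroup.mem_centralizer_singleton_iff]
        exact ⟨hy, hys⟩
    have hRC2 : 2 * Nat.card R ≤ Nat.card C := by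
      obtain ⟨k, hk⟩ := Subgroup.card_dvd_of_le hRC.le
      have h3 := H2.Card.card_lt_of_lt hRC
      have hposR : 0 < Nat.card R := Nat.card_pos
      have : 2 ≤ k := by
        by_contra hk'
        have : k = 0 ∨ k = 1 := by omega
        rcases this with rfl | rfl
        · simp at hk; omega
        · rw [mul_one] at hk; omega
      rw [hk]; nlinarith
    have hTR' := Nat.card_le_card_of_injective _ (Subgroup.inclusion_injective hTR)
    have hQ2R : Nat.card Q' ≤ 2 * Nat.card R := by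
      by_contra hlt
      push Not at hlt
      have h3 : 2 * Nat.card Q' ≤ Nat.card R * Nat.card R := by
        rw [← hdual]; exact Nat.mul_le_mul_left _ hTR'
      nlinarith
    have hCQ : C = Q' := Subgroup.eq_of_le_of_card_ge inf_le_left (by omega)
    have hcs : s = 1 ∨ s = x := by
      apply h'.cen s hsQ
      intro w hw
      have hw' : w ∈ C := hCQ ▸ hw
      exact (Subgroup.mem_centralizer_singleton_iff.mp (Subgroup.mem_inf.mp hw').2).symm
    rcases hcs with h3 | h3
    · apply hyR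
      rw [hRmem]
      refine ⟨hy, ?_⟩
      rw [h3, one_mul] at hsz'
      have := mul_inv_eq_iff_eq_mul.mp hsz'.symm
      exact this
    · apply hno y hy
      rw [← hsz', h3]
  obtain ⟨p, hp, p', hp', hpx, hpx', hpp⟩ := hPna
  have hzpp := (h.comm p hp p' hp').resolve_left hpp
  -- action
  have hfin : ∀ y ∈ Q', z * y * z⁻¹ = y ∨ z * y * z⁻¹ = x * y := by
    intro Y hY
    -- Y = (p' p) y (p' p)⁻¹
    set y := (p' * p)⁻¹ * Y * (p' * p) with hydef
    have hy : y ∈ Q' := by
      have h1 : (p' * p)⁻¹ * x = x * (p' * p)⁻¹ := by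
        have h2 : (p' * p) * x = x * (p' * p) := by rw [mul_assoc, hpx, ← mul_assoc, hpx', mul_assoc]
        calc (p' * p)⁻¹ * x = (p' * p)⁻¹ * (x * (p' * p)) * (p' * p)⁻¹ := by group
          _ = (p' * p)⁻¹ * ((p' * p) * x) * (p' * p)⁻¹ := by rw [h2]
          _ = _ := by group
      have h3 := hPn (p' * p)⁻¹ (Q.inv_mem (Q.mul_mem hp' hp)) h1 Y hY
      rw [inv_inv] at h3
      exact h3
    obtain ⟨t, ht, hty⟩ := hPT p hp hpx y hy
    obtain ⟨t', ht', hty'⟩ := hPT p' hp' hpx' y hy
    obtain ⟨htQ, htc⟩ := (hTmem t).mp ht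
    obtain ⟨htQ', htc'⟩ := (hTmem t').mp ht'
    have htt : t * t' = t' * t := htc' t (hTR ht)
    have hact : ∀ (a : G), a ∈ Q → a * x = x * a → ∀ s ∈ T, a * s * a⁻¹ = s ∨ a * s * a⁻¹ = x * s := by
      intro a ha hax s hs
      obtain ⟨hs1, hs2⟩ := (hRmem s).mp (hTR hs)
      exact hRP s hs1 hs2 a ha hax
    have hYeq : Y = p' * (p * y * p⁻¹) * p'⁻¹ := by rw [hydef]; group
    have hzY : z * Y * z⁻¹ = p * (p' * y * p'⁻¹) * p⁻¹ := by
      have : z * (p' * p) = p * p' := hzpp.symm
      calc z * Y * z⁻¹ = (z * (p' * p)) * y * (z * (p' * p))⁻¹ := by rw [hydef]; group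
        _ = (p * p') * y * (p * p')⁻¹ := by rw [this]
        _ = _ := by group
    have h1 : z * Y * z⁻¹ = (p * t' * p⁻¹) * t * y := by
      rw [hzY, hty']
      calc p * (t' * y) * p⁻¹ = (p * t' * p⁻¹) * (p * y * p⁻¹) := by group
        _ = _ := by rw [hty, ← mul_assoc]
    have h2 : Y = (p' * t * p'⁻¹) * t' * y := by
      rw [hYeq, hty]
      calc p' * (t * y) * p'⁻¹ = (p' * t * p'⁻¹) * (p' * y * p'⁻¹) := by group
        _ = _ := by rw [hty', ← mul_assoc]
    rw [h1]
    rcases hact p hp hpx t' ht' with h3 | h3 <;> rcases hact p' hp' hpx' t ht with h4 | h4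
    · left; rw [h3, h2, h4, htt]
    · right
      rw [h3, h2, h4]
      calc t' * t * y = (x * x) * (t' * t) * y := by rw [hxx, one_mul]
        _ = (x * x) * (t * t') * y := by rw [htt]
        _ = _ := by group
    · right
      rw [h3, h2, h4]
      calc x * t' * t * y = x * (t' * t) * y := by group
        _ = x * (t * t') * y := by rw [htt]
        _ = _ := by group
    · left
      rw [h3, h2, h4]
      calc x * t' * t * y = x * (t' * t) * y := by group
        _ = x * (t * t') * y := by rw [htt]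
        _ = _ := by group
  -- so z centralizes Q'
  have hzc : z ∈ Subgroup.centralizer (Q' : Set G) := by
    rw [Subgroup.mem_centralizer_iff]
    intro y hy
    rcases hfin y hy with h1 | h1
    · rw [mul_inv_eq_iff_eq_mul] at h1; exact h1.symm
    · exfalso
      apply hno y hy
      rw [mul_inv_eq_iff_eq_mul] at h1 ⊢
      -- z y = x y z → y z = x⁻¹ z y = x z y
      calc y * z = (x * x) * (y * z) := by rw [hxx, one_mul]
        _ = x * (x * y * z) := by group
        _ = x * (z * y) := by rw [← h1]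
        _ = _ := by group
  rw [h'.cent, mem_zpowers_of_sq hxx] at hzc
  rcases hzc with h1 | h1
  · exact h.ne h1
  · exact hxz h1.symm

end Cfsg.Agent.H28.Large
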