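import Cfsg.Agent.H28_Large2

set_option autoImplicit false
set_option linter.all false
open Cfsg
open scoped commutatorElement

namespace Cfsg.Agent.H28.Large

open Cfsg.Agent.H28.Xsp

variable {G : Type*} [Group G] [Finite G]

/-- the four-group generated by two commuting involutions. -/
theorem mem_pair {x z w : G} (hxx : x * x = 1) (hzz : z * z = 1) (hzx : z * x = x * z)
    (hw : w ∈ Subgroup.closure ({x, z} : Set G)) : w = 1 ∨ w = x ∨ w = z ∨ w = z * x := by
  have hxi : x⁻¹ = x := inv_eq_of_mul_eq_one_left hxx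
  have hzi : z⁻¹ = z := inv_eq_of_mul_eq_one_left hzz
  induction hw using Subgroup.closure_induction with
  | mem y hy =>
    rcases hy with rfl | hy
    · right; left; rfl
    · rw [Set.mem_singleton_iff] at hy; subst hy; right; right; left; rfl
  | one => left; rfl
  | mul a b _ _ ha hb =>
    rcases ha with rfl | rfl | rfl | rfl <;> rcases hb with rfl | rfl | rfl | rfl
    · simp
    · simp
    · simp
    · simp
    · simp
    · simp [hxx]
    · right; right; right; rw [hzx]
    · right; right; left; rw [hzx, ← mul_assoc, hxx, one_mul]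
    · simp
    · simp
    · simp [hzz]
    · right; left; rw [← mul_assoc, hzz, one_mul]
    · simp
    · right; right; left; rw [mul_assoc, hxx, mul_one]
    · right; left; rw [mul_assoc, ← hzx, ← mul_assoc, hzz, one_mul]
    · left
      calc z * x * (z * x) = z * (x * z) * x := by group
        _ = z * (z * x) * x := by rw [hzx]
        _ = (z * z) * (x * x) := by group
        _ = 1 := by rw [hzz, hxx, one_mul]
  | inv a _ ha =>
    rcases ha with rfl | rfl | rfl | rfl
    · simp
    · right; left; exact hxi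
    · right; right; left; exact hzi
    · right; right; right; rw [mul_inv_rev, hxi, hzi, hzx]

/-- Let `b ∈ Q` be a noncentral involution, `N` a 2-subgroup containing `z` normalized by `C(b)`. Then
`Q` is large. -/
theorem Pre.large_of_core {Q : Subgroup G} {z : G} (h : Pre Q z) {b : G} (hb : b ∈ Q) (hb1 : b ≠ 1)
    (hbz : b ≠ z) (hbb : b * b = 1) (N : Subgroup G) (hN : IsPGroup 2 N) (hzN : z ∈ N)
    (hCN : ∀ c : G, c * b = b * c → ∀ n ∈ N, c * n * c⁻¹ ∈ N) : IsLargeExtraspecial Q := by
  apply h.large
  intro K hK hQK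
  have hzb : z * b = b * z := h.zc b hb
  have hzz := h.sq
  -- fixed points of b
  have hb1' : ∀ (a : G) (M : Subgroup G), IsPGroup 2 M → z ∈ M → z * a = a * z →
      (∀ c : G, c * a = a * c → ∀ n ∈ M, c * n * c⁻¹ ∈ M) →
      K ⊓ Subgroup.centralizer ({a} : Set G) ≤ Subgroup.centralizer ({z} : Set G) := by
    intro a M hM hzM hza hcM k hk
    obtain ⟨hkK, hka⟩ := Subgroup.mem_inf.mp hk
    rw [Subgroup.mem_centralizer_singleton_iff] at hka
    rw [Subgroup.mem_centralizer_singleton_iff]
    have h1 : k * z * k⁻¹ ∈ M := hcM k hka z hzM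
    have h2 : z * k⁻¹ * z⁻¹ ∈ K := (Subgroup.mem_normalizer_iff.mp (hQK h.mem) k⁻¹).mp (K.inv_mem hkK)
    exact commute_of_normalize (inf_eq_bot_of_odd hK hM) hkK hzM h1 h2
  have hCb := hb1' b N hN hzN hzb hCN
  -- q b q⁻¹ = z b
  obtain ⟨q, hq, hqb⟩ := h.exists_move hb hb1 hbz
  have hqz : q * z * q⁻¹ = z := by rw [← h.zc q hq, mul_inv_cancel_right]
  have hCzb := hb1' (z * b) (N.map (MulAut.conj q).toMonoidHom) (hN.map _)
    (by
      rw [mem_map_conj]
      have : q⁻¹ * z * q = z := by
        calc q⁻¹ * z * q = q⁻¹ * (q * z * q⁻¹) * q := by rw [hqz]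
          _ = z := by group
      rwa [this])
    (by rw [mul_assoc, ← hzb])
    (by
      intro c hc n hn
      rw [mem_map_conj] at hn ⊢
      rw [← hqb] at hc
      have h1 : (q⁻¹ * c * q) * b = b * (q⁻¹ * c * q) := by
        calc (q⁻¹ * c * q) * b = q⁻¹ * (c * (q * b * q⁻¹)) * q := by group
          _ = q⁻¹ * ((q * b * q⁻¹) * c) * q := by rw [hc]
          _ = _ := by group
      have h2 := hCN _ h1 _ hn
      have h3 : q⁻¹ * (c * n * c⁻¹) * q = q⁻¹ * c * q * (q⁻¹ * n * q) * (q⁻¹ * c * q)⁻¹ := by group
      rwa [h3])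
  -- generation by centralizers
  let A : Subgroup G := Subgroup.closure {b, z}
  have hAmem : ∀ a ∈ A, a = 1 ∨ a = b ∨ a = z ∨ a = z * b := fun a ha => mem_pair hbb hzz hzb ha
  have hAcomm : IsMulCommutative A := by
    constructor
    constructor
    rintro ⟨u, hu⟩ ⟨v, hv⟩
    apply Subtype.ext
    show u * v = v * u
    rcases hAmem u hu with hu' | hu' | hu' | hu' <;> rcases hAmem v hv with hv' | hv' | hv' | hv' <;>
      rw [hu', hv'] <;> try simp only [mul_one, one_mul]
    · exact hzb.symm
    · calc b * (z * b) = (b * z) * b := by group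
        _ = _ := by rw [← hzb]
    · exact hzb
    · calc z * (z * b) = z * (b * z) := by rw [hzb]
        _ = _ := by group
    · calc z * b * b = (b * z) * b := by rw [hzb]
        _ = _ := by group
    · calc z * b * z = z * (b * z) := by group
        _ = _ := by rw [← hzb]
  have hAsq : ∀ a ∈ A, a * a = 1 := by
    intro a ha
    rcases hAmem a ha with ha' | ha' | ha' | ha' <;> rw [ha']
    · simp
    · exact hbb
    · exact hzz
    · calc z * b * (z * b) = z * (b * z) * b := by group
        _ = z * (z * b) * b := by rw [hzb]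
        _ = (z * z) * (b * b) := by group
        _ = 1 := by rw [hzz, hbb, one_mul]
  have hzA : z ∈ A := Subgroup.subset_closure (by simp)
  have hbA : b ∈ A := Subgroup.subset_closure (by simp)
  have hncyc : ¬ IsCyclic A := by
    intro hc
    obtain ⟨g, hg⟩ := hc.exists_generator
    have hgg : (g : G) * g = 1 := hAsq g g.2
    have hmem : ∀ a ∈ A, a = 1 ∨ a = (g : G) := by
      intro a ha
      have := hg ⟨a, ha⟩
      obtain ⟨k, hk⟩ := Subgroup.mem_zpowers_iff.mp this
      have h1 : (g : G) ^ k = a := by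
        have := congrArg Subtype.val hk
        simpa using this
      rw [← mem_zpowers_of_sq hgg]
      exact Subgroup.mem_zpowers_iff.mpr ⟨k, h1⟩
    rcases hmem z hzA with h1 | h1
    · exact h.ne h1
    · rcases hmem b hbA with h2 | h2
      · exact hb1 h2
      · exact hbz (h2.trans h1.symm)
  have hAp : IsPGroup 2 A := by
    intro a
    refine ⟨1, ?_⟩
    apply Subtype.ext
    rw [pow_one, pow_two]
    exact hAsq a a.2
  have : Fact (Nat.Prime 2) := ⟨Nat.prime_two⟩
  have hcop : (Nat.card A).Coprime (Nat.card K) := by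
    obtain ⟨n, hn⟩ := hAp.exists_card_eq
    rw [hn]
    exact (Nat.coprime_two_left.mpr hK).pow_left n
  have hAQ : A ≤ Q := by
    rw [Subgroup.closure_le]
    intro y hy
    rcases hy with hy | hy
    · rw [hy]; exact hb
    · rw [Set.mem_singleton_iff] at hy; rw [hy]; exact h.mem
  have hgen := Cfsg.Agent.S0058.result A K hncyc (hAQ.trans hQK) hcop
  rw [← hgen]
  apply iSup₂_le
  rintro a ⟨ha, ha1⟩
  rcases hAmem a ha with ha' | ha' | ha' | ha'
  · exact absurd ha' ha1
  · rw [ha']; exact hCb
  · rw [ha']; exact inf_le_right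
  · rw [ha']; exact hCzb

end Cfsg.Agent.H28.Large
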