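import Mathlib
import Cfsg.Agent.H7_M24d

set_option autoImplicit false

/-!
Engine for "the stabiliser in `M24` of an object `X` is transitive on the sets `s` in a family with a given relation
to `X`", with the size of that family; and the criterion for a stabiliser to be a maximal subgroup.
-/

namespace Cfsg.Agent.H7.Pairs

open Cfsg Cfsg.Agent.H7.Golay Cfsg.Agent.H7.Oct Cfsg.Agent.H7.M24 Cfsg.Agent.H7.M24b Cfsg.Agent.H7.M24c
open Cfsg.Agent.H7.M24d
open scoped Pointwise

/-- lists of masks closed under `M24` -/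
structure Closed (L : List ℕ) : Prop where
  nodup : L.Nodup
  lt : ∀ m ∈ L, m < 16777216
  inv : ∀ g ∈ M24, ∀ s : Finset GolayPt, mask s ∈ L → mask (g • s) ∈ L

theorem closed_octL : Closed octL :=
  ⟨octL_nodup, fun _ h => octL_lt h, fun g hg s hs => by
    rw [← mem_octads_iff] at hs ⊢
    exact (smul_mem_octads_iff hg).2 hs⟩

theorem closed_dodL : Closed dodL :=
  ⟨dodL_nodup, fun _ h => dodL_lt h, fun g hg s hs => by
    rw [← mem_dodecads_iff] at hs ⊢
    exact (smul_mem_dodecads_iff hg).2 hs⟩

/-- masks of the `k`-element subsets of the first `n` points -/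
def subs : ℕ → ℕ → List ℕ
  | 0, 0 => [0]
  | 0, _ + 1 => []
  | n + 1, 0 => subs n 0
  | n + 1, k + 1 => subs n (k + 1) ++ (subs n k).map (fun m => Nat.lor m (Nat.shiftLeft 1 n))

theorem subs_lt (n k : ℕ) : ∀ m ∈ subs n k, m < 2 ^ n := by
  induction n generalizing k with
  | zero => cases k <;> simp [subs]
  | succ n ih =>
    cases k with
    | zero =>
      intro m hm
      have := ih 0 m hm
      rw [pow_succ]; omega
    | succ k =>
      intro m hm
      simp only [subs, List.mem_append, List.mem_map] at hm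
      rcases hm with hm | ⟨m', hm', rfl⟩
      · have := ih _ m hm
        rw [pow_succ]; omega
      · have h1 := ih _ m' hm'
        have h2 : Nat.shiftLeft 1 n = 2 ^ n := Nat.one_shiftLeft n
        rw [h2]
        exact Nat.or_lt_two_pow (h1.trans (Nat.pow_lt_pow_right (by norm_num) (by omega)))
          (Nat.pow_lt_pow_right (by norm_num) (by omega))

/-- cardinality of the support below `n` -/
def wt (n m : ℕ) : ℕ := ((Finset.range n).filter fun i => m.testBit i = true).card

theorem wt_succ (n m : ℕ) : wt (n + 1) m = wt n m + (if m.testBit n = true then 1 else 0) := by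
  rw [wt, wt, Finset.range_add_one, Finset.filter_insert]
  split
  · rw [Finset.card_insert_of_notMem (by simp)]
  · rw [add_zero]

theorem mem_subs (n k m : ℕ) : m ∈ subs n k ↔ m < 2 ^ n ∧ wt n m = k := by
  induction n generalizing k m with
  | zero =>
    cases k with
    | zero => simp [subs, wt]
    | succ k => simp [subs, wt]
  | succ n ih =>
    have hwt : ∀ a, a < 2 ^ n → wt n (a ||| 2 ^ n) = wt n a := by
      intro a ha
      rw [wt, wt]
      congr 1
      apply Finset.filter_congr
      intro i hi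
      rw [Finset.mem_range] at hi
      rw [Nat.testBit_or, Nat.testBit_two_pow_of_ne (by omega), Bool.or_false]
    cases k with
    | zero =>
      show m ∈ subs n 0 ↔ _
      rw [ih, wt_succ]
      constructor
      · rintro ⟨h1, h2⟩
        refine ⟨by rw [pow_succ]; omega, ?_⟩
        rw [h2, Nat.testBit_lt_two_pow h1]
        rfl
      · rintro ⟨h1, h2⟩
        by_cases hb : m.testBit n = true
        · simp [hb] at h2
        · have hb' : m.testBit n = false := by simpa using hb
          refine ⟨?_, by simpa [hb'] using h2⟩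
          apply Nat.lt_pow_two_of_testBit
          intro i hi
          rcases Nat.eq_or_lt_of_le hi with rfl | hi
          · exact hb'
          · exact Nat.testBit_lt_two_pow (h1.trans_le (Nat.pow_le_pow_right (by norm_num) hi))
    | succ k =>
      simp only [subs, List.mem_append, List.mem_map, ih]
      have h2n : Nat.shiftLeft 1 n = 2 ^ n := Nat.one_shiftLeft n
      constructor
      · rintro (⟨h1, h2⟩ | ⟨a, ⟨h1, h2⟩, rfl⟩)
        · refine ⟨by rw [pow_succ]; omega, ?_⟩
          rw [wt_succ, h2, Nat.testBit_lt_two_pow h1]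
          rfl
        · rw [h2n]
          refine ⟨Nat.or_lt_two_pow (h1.trans (Nat.pow_lt_pow_right (by norm_num) (by omega)))
            (Nat.pow_lt_pow_right (by norm_num) (by omega)), ?_⟩
          show wt (n + 1) (a ||| 2 ^ n) = k + 1
          rw [wt_succ, hwt a h1, h2, Nat.testBit_or, Nat.testBit_two_pow_self]
          simp
      · rintro ⟨h1, h2⟩
        rw [wt_succ] at h2
        by_cases hb : m.testBit n = true
        · right
          refine ⟨m ^^^ 2 ^ n, ?_, ?_⟩
          · have hlt : m ^^^ 2 ^ n < 2 ^ n := by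
              apply Nat.lt_pow_two_of_testBit
              intro i hi
              rw [Nat.testBit_xor]
              rcases Nat.eq_or_lt_of_le hi with rfl | hi
              · rw [hb, Nat.testBit_two_pow_self]; rfl
              · rw [Nat.testBit_lt_two_pow (h1.trans_le (Nat.pow_le_pow_right (by norm_num) hi)),
                  Nat.testBit_two_pow_of_ne (by omega)]
                rfl
            refine ⟨hlt, ?_⟩
            have h3 : wt n (m ^^^ 2 ^ n) = wt n m := by
              rw [wt, wt]
              congr 1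
              apply Finset.filter_congr
              intro i hi
              rw [Finset.mem_range] at hi
              rw [Nat.testBit_xor, Nat.testBit_two_pow_of_ne (by omega), Bool.xor_false]
            rw [h3]
            simp only [hb, if_true] at h2
            omega
          · rw [h2n]
            apply Nat.eq_of_testBit_eq
            intro i
            show ((m ^^^ 2 ^ n) ||| 2 ^ n).testBit i = _
            rw [Nat.testBit_or, Nat.testBit_xor]
            by_cases hi : n = i
            · subst hi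
              rw [hb, Nat.testBit_two_pow_self]; rfl
            · rw [Nat.testBit_two_pow_of_ne hi]
              simp
        · left
          have hb' : m.testBit n = false := by simpa using hb
          refine ⟨?_, by simpa [hb'] using h2⟩
          apply Nat.lt_pow_two_of_testBit
          intro i hi
          rcases Nat.eq_or_lt_of_le hi with rfl | hi
          · exact hb'
          · exact Nat.testBit_lt_two_pow (h1.trans_le (Nat.pow_le_pow_right (by norm_num) hi))

theorem subs_nodup (n k : ℕ) : (subs n k).Nodup := by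
  induction n generalizing k with
  | zero => cases k <;> simp [subs]
  | succ n ih =>
    cases k with
    | zero => exact ih 0
    | succ k =>
      simp only [subs]
      refine List.Nodup.append (ih _) ?_ ?_
      · refine (ih k).map_on ?_
        intro a ha b hb hab
        have h2n : Nat.shiftLeft 1 n = 2 ^ n := Nat.one_shiftLeft n
        rw [h2n] at hab
        have hab : a ||| 2 ^ n = b ||| 2 ^ n := hab
        have ha' := subs_lt n k a ha
        have hb' := subs_lt n k b hb
        apply Nat.eq_of_testBit_eq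
        intro i
        by_cases hi : n = i
        · subst hi; rw [Nat.testBit_lt_two_pow ha', Nat.testBit_lt_two_pow hb']
        · have := congrArg (fun z => Nat.testBit z i) hab
          simpa [Nat.testBit_two_pow_of_ne hi] using this
      · intro x hx hx'
        obtain ⟨y, hy, rfl⟩ := List.mem_map.1 hx'
        have h1 := subs_lt _ _ _ hx
        have h2n : Nat.shiftLeft 1 n = 2 ^ n := Nat.one_shiftLeft n
        rw [h2n] at h1
        have h1 : (y ||| 2 ^ n) < 2 ^ n := h1
        have h2 : (y ||| 2 ^ n).testBit n = true := by rw [Nat.testBit_or, Nat.testBit_two_pow_self]; simp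
        rw [Nat.testBit_lt_two_pow h1] at h2
        exact absurd h2 (by decide)

theorem wt_24 (m : ℕ) : wt 24 m = pc m := by
  rw [pc_eq, wt, Finset.card_filter, Finset.sum_range]

theorem mem_subs24 {k m : ℕ} : m ∈ subs 24 k ↔ m < 16777216 ∧ pc m = k := by
  rw [mem_subs, wt_24]
  norm_num

theorem mask_mem_subs {k : ℕ} {s : Finset GolayPt} : mask s ∈ subs 24 k ↔ s.card = k := by
  rw [mem_subs24, pc_mask]
  exact and_iff_right (mask_lt s)

theorem closed_subs (k : ℕ) : Closed (subs 24 k) :=
  ⟨subs_nodup 24 k, fun m hm => (mem_subs24.1 hm).1, fun g _ s hs => by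
    rw [mask_mem_subs] at hs ⊢
    rw [Finset.card_smul_finset, hs]⟩

theorem pair_std {α : Type*} [MulAction (Equiv.Perm GolayPt) α] (X0 : α) {L : List ℕ} (hL : Closed L)
    (P : α → Finset GolayPt → Prop) (hP : ∀ g ∈ M24, ∀ X s, P X s → P (g • X) (g • s))
    (q : ℕ → Bool) (hq : ∀ m ∈ L, (q m = true ↔ P X0 (ofMask m))) (gs : List (List ℕ))
    (hgs : Has (M24 ⊓ MulAction.stabilizer (Equiv.Perm GolayPt) X0) gs) (m0 : ℕ)
    (check : L.all (fun m => !(q m) || (Nat.beq m m0 || gs.any fun l => Nat.blt (act l m) m)) = true) :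
    ∀ s, mask s ∈ L → P X0 s → ∃ g ∈ M24 ⊓ MulAction.stabilizer (Equiv.Perm GolayPt) X0, g • s = ofMask m0 := by
  have key := descent (M24 ⊓ MulAction.stabilizer (Equiv.Perm GolayPt) X0) ofMask
    (fun m => m ∈ L ∧ P X0 (ofMask m)) m0 (by
      rintro m ⟨hm, hPm⟩
      have h1 := List.all_eq_true.1 check m hm
      have h2 : q m = true := (hq m hm).2 hPm
      simp only [h2, Bool.not_true, Bool.false_or, Bool.or_eq_true, List.any_eq_true] at h1
      rcases h1 with h1 | ⟨l, hl, h1⟩
      · exact Or.inl (Nat.eq_of_beq_eq_true h1)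
      · right
        obtain ⟨g, hg, hr⟩ := hgs l hl
        refine ⟨g, hg, act l m, hr.smul_ofMask m, blt_lt h1, ?_, ?_⟩
        · have h3 := hL.inv g hg.1 (ofMask m) (by rw [mask_ofMask (hL.lt m hm)]; exact hm)
          rw [hr.smul_ofMask, mask_ofMask (act_lt hr)] at h3
          exact h3
        · have h3 := hP g hg.1 X0 _ hPm
          have h4 : g • X0 = X0 := hg.2
          rw [h4, hr.smul_ofMask] at h3
          exact h3)
  intro s hs hPs
  have := key (mask s) ⟨hs, by rw [ofMask_mask]; exact hPs⟩
  rwa [ofMask_mask] at this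

/-- transitivity of the stabiliser of `X` on the sets of the family related to `X` -/
theorem pair_trans {α : Type*} [MulAction (Equiv.Perm GolayPt) α] (X0 : α) {L : List ℕ} (hL : Closed L)
    (P : α → Finset GolayPt → Prop) (hP : ∀ g ∈ M24, ∀ X s, P X s → P (g • X) (g • s))
    (q : ℕ → Bool) (hq : ∀ m ∈ L, (q m = true ↔ P X0 (ofMask m))) (gs : List (List ℕ))
    (hgs : Has (M24 ⊓ MulAction.stabilizer (Equiv.Perm GolayPt) X0) gs) (m0 : ℕ)
    (check : L.all (fun m => !(q m) || (Nat.beq m m0 || gs.any fun l => Nat.blt (act l m) m)) = true)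
    {X : α} (hX : ∃ h ∈ M24, h • X = X0) {s s' : Finset GolayPt} (hs : mask s ∈ L) (hs' : mask s' ∈ L)
    (hPs : P X s) (hPs' : P X s') : ∃ g ∈ M24, g • X = X ∧ g • s = s' := by
  obtain ⟨h, hh, hhX⟩ := hX
  have h1 := hP h hh X s hPs
  have h2 := hP h hh X s' hPs'
  rw [hhX] at h1 h2
  obtain ⟨g1, hg1, e1⟩ := pair_std X0 hL P hP q hq gs hgs m0 check _ (hL.inv h hh s hs) h1
  obtain ⟨g2, hg2, e2⟩ := pair_std X0 hL P hP q hq gs hgs m0 check _ (hL.inv h hh s' hs') h2
  refine ⟨h⁻¹ * (g2⁻¹ * g1) * h, mul_mem (mul_mem (inv_mem hh) (mul_mem (inv_mem hg2.1) hg1.1)) hh, ?_, ?_⟩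
  · have h3 : g1 • X0 = X0 := hg1.2
    have h4 : g2 • X0 = X0 := hg2.2
    rw [mul_smul, mul_smul, mul_smul, hhX, h3, inv_smul_eq_iff, inv_smul_eq_iff, hhX, h4]
  · rw [mul_smul, mul_smul, mul_smul, e1, ← e2, inv_smul_smul, inv_smul_smul]

/-- number of the sets of the family related to `X` -/
theorem pair_count {α : Type*} [MulAction (Equiv.Perm GolayPt) α] (X0 : α) {L : List ℕ} (hL : Closed L)
    (P : α → Finset GolayPt → Prop) (hP : ∀ g ∈ M24, ∀ X s, P X s → P (g • X) (g • s))
    (q : ℕ → Bool) (hq : ∀ m ∈ L, (q m = true ↔ P X0 (ofMask m)))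
    {X : α} (hX : ∃ h ∈ M24, h • X = X0) :
    {s : Finset GolayPt | mask s ∈ L ∧ P X s}.ncard = (L.filter q).length := by
  obtain ⟨h, hh, hhX⟩ := hX
  rw [ncard_transport h _ {s : Finset GolayPt | mask s ∈ L ∧ P X0 s}]
  · apply ncard_of_list _ (hL.nodup.filter _)
    · intro m hm
      exact hL.lt m (List.mem_of_mem_filter hm)
    · intro s
      rw [List.mem_filter]
      constructor
      · rintro ⟨h1, h2⟩
        exact ⟨h1, (hq _ h1).2 (by rw [ofMask_mask]; exact h2)⟩
      · rintro ⟨h1, h2⟩
        refine ⟨h1, ?_⟩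
        have := (hq _ h1).1 h2
        rwa [ofMask_mask] at this
  · intro s
    constructor
    · rintro ⟨h1, h2⟩
      refine ⟨hL.inv h hh s h1, ?_⟩
      rw [← hhX]; exact hP h hh X s h2
    · rintro ⟨h1, h2⟩
      have h3 := hL.inv h⁻¹ (inv_mem hh) _ h1
      have h4 := hP h⁻¹ (inv_mem hh) _ _ h2
      rw [inv_smul_smul] at h3 h4
      rw [← hhX, inv_smul_smul] at h4
      exact ⟨h3, h4⟩

/-- generators of the stabiliser of an object, from a Boolean test -/
theorem has_stabilizer {α : Type*} [MulAction (Equiv.Perm GolayPt) α] (X0 : α) (gs : List (List ℕ))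
    (t : List ℕ → Bool) (ht : ∀ l, t l = true → ∀ g, Rep g l → g • X0 = X0)
    (h : gs.all (fun l => isM24 l && t l) = true) :
    Has (M24 ⊓ MulAction.stabilizer (Equiv.Perm GolayPt) X0) gs := by
  intro l hl
  have h1 := List.all_eq_true.1 h l hl
  rw [Bool.and_eq_true] at h1
  obtain ⟨g, hg, hr⟩ := exists_M24 h1.1
  exact ⟨g, ⟨hg, ht l h1.2 g hr⟩, hr⟩

/-! ### maximality of a stabiliser from its orbit lengths -/

section coatom

variable {G α : Type*} [Group G] [Finite G] [MulAction G α]

theorem coatom_of_suborbits (X : α) (r : ℕ) (Δ : Fin r → Set α)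
    (horb : ∀ y, y ∈ MulAction.orbit G X ↔ y = X ∨ ∃ i, y ∈ Δ i)
    (hX : ∀ i, X ∉ Δ i) (hdisj : ∀ i j, ∀ y, y ∈ Δ i → y ∈ Δ j → i = j)
    (htr : ∀ i, ∀ y ∈ Δ i, ∀ y' ∈ Δ i, ∃ g : G, g • X = X ∧ g • y = y')
    (s : Fin r → ℕ) (hs : ∀ i, (Δ i).ncard = s i)
    (hpos : ∃ i, s i ≠ 0)
    (arith : ∀ I : Finset (Fin r), (1 + ∑ i ∈ I, s i) ∣ (1 + ∑ i, s i) → I = ∅ ∨ I = Finset.univ) :
    IsCoatom (MulAction.stabilizer G X) := by
  classical
  set H := MulAction.stabilizer G X with hH
  have hfinorb : (MulAction.orbit G X).Finite := Set.finite_range _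
  have hΔfin : ∀ i, (Δ i).Finite := fun i => hfinorb.subset fun y hy => (horb y).2 (Or.inr ⟨i, hy⟩)
  -- size of a union of suborbits
  have hunion : ∀ I : Finset (Fin r), ({X} ∪ ⋃ i ∈ I, Δ i : Set α).ncard = 1 + ∑ i ∈ I, s i := by
    intro I
    have h1 : (⋃ i ∈ I, Δ i : Set α).ncard = ∑ i ∈ I, s i := by
      induction I using Finset.induction_on with
      | empty => simp
      | insert a I ha ih =>
        have hd : Disjoint (Δ a) (⋃ x ∈ I, Δ x) := by
          rw [Set.disjoint_left]
          intro y hy hy'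
          simp only [Set.mem_iUnion] at hy'
          obtain ⟨j, hj, hy'⟩ := hy'
          exact ha (hdisj a j y hy hy' ▸ hj)
        rw [Finset.set_biUnion_insert, Set.ncard_union_eq hd (hΔfin a)
          (Set.Finite.biUnion I.finite_toSet fun i _ => hΔfin i), ih, Finset.sum_insert ha, hs]
    have hd : Disjoint {X} (⋃ i ∈ I, Δ i) := by
      rw [Set.disjoint_left]
      intro y hy hy'
      rw [Set.mem_singleton_iff] at hy
      simp only [Set.mem_iUnion] at hy'
      obtain ⟨j, _, hy'⟩ := hy'
      exact hX j (hy ▸ hy')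
    rw [Set.ncard_union_eq hd (Set.finite_singleton _)
      (Set.Finite.biUnion I.finite_toSet fun i _ => hΔfin i), Set.ncard_singleton, h1]
  have hcard : ∀ K : Subgroup G, H ≤ K → Nat.card K = (MulAction.orbit K X).ncard * Nat.card H := by
    intro K hK
    rw [card_eq_orbit_mul K X]
    congr 2
    rw [← hH, inf_eq_right.2 hK]
  have hH0 : 0 < Nat.card H := Nat.card_pos
  -- the orbit of an overgroup
  have horbK : ∀ K : Subgroup G, H ≤ K → ∃ I : Finset (Fin r),
      (MulAction.orbit K X : Set α) = {X} ∪ ⋃ i ∈ I, Δ i := by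
    intro K hK
    refine ⟨Finset.univ.filter fun i => ∃ y ∈ Δ i, y ∈ MulAction.orbit K X, ?_⟩
    ext y
    simp only [Set.mem_union, Set.mem_singleton_iff, Set.mem_iUnion, Finset.mem_filter, Finset.mem_univ, true_and]
    constructor
    · intro hy
      have hy' : y ∈ MulAction.orbit G X := by
        obtain ⟨k, rfl⟩ := hy
        exact ⟨k.1, rfl⟩
      rcases (horb y).1 hy' with rfl | ⟨i, hi⟩
      · exact Or.inl rfl
      · exact Or.inr ⟨i, ⟨y, hi, hy⟩, hi⟩
    · rintro (rfl | ⟨i, ⟨z, hz, hzK⟩, hy⟩)
      · exact MulAction.mem_orbit_self _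
      · obtain ⟨g, hg1, hg2⟩ := htr i z hz y hy
        obtain ⟨k, hk⟩ := hzK
        refine ⟨⟨g, hK hg1⟩ * k, ?_⟩
        have hk' : (k : G) • X = z := hk
        show (g * (k : G)) • X = y
        rw [mul_smul, hk', hg2]
  have htop := hcard ⊤ le_top
  have horbG : (MulAction.orbit (⊤ : Subgroup G) X : Set α) = {X} ∪ ⋃ i ∈ (Finset.univ : Finset (Fin r)), Δ i := by
    ext y
    simp only [Set.mem_union, Set.mem_singleton_iff, Set.mem_iUnion, Finset.mem_univ, exists_prop, true_and]
    rw [← horb]
    constructor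
    · rintro ⟨k, rfl⟩; exact ⟨k.1, rfl⟩
    · rintro ⟨k, rfl⟩; exact ⟨⟨k, Subgroup.mem_top k⟩, rfl⟩
  rw [horbG, hunion] at htop
  refine ⟨?_, ?_⟩
  · intro hHtop
    obtain ⟨i, hi⟩ := hpos
    rw [hHtop] at htop
    have hG0 : 0 < Nat.card (⊤ : Subgroup G) := Nat.card_pos
    have h2 : 1 + ∑ i, s i = 1 := by
      have h3 : (1 + ∑ i, s i) * Nat.card (⊤ : Subgroup G) = 1 * Nat.card (⊤ : Subgroup G) := by
        rw [one_mul]; exact htop.symm
      exact Nat.eq_of_mul_eq_mul_right hG0 h3
    have h4 : ∑ i, s i = 0 := by omega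
    rw [Finset.sum_eq_zero_iff] at h4
    exact hi (h4 i (Finset.mem_univ i))
  · intro K hK
    obtain ⟨I, hI⟩ := horbK K hK.le
    have hcK := hcard K hK.le
    rw [hI, hunion] at hcK
    have hdvd : (1 + ∑ i ∈ I, s i) ∣ (1 + ∑ i, s i) := by
      have h1 : Nat.card K ∣ Nat.card (⊤ : Subgroup G) := Subgroup.card_dvd_of_le le_top
      rw [hcK, htop] at h1
      exact Nat.dvd_of_mul_dvd_mul_right hH0 h1
    rcases arith I hdvd with rfl | rfl
    · exfalso
      rw [Finset.sum_empty, add_zero, one_mul] at hcK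
      exact hK.ne (Subgroup.eq_of_le_of_card_ge hK.le hcK.le)
    · refine Subgroup.eq_top_of_card_eq K ?_
      rw [hcK, ← htop, Subgroup.card_top]

end coatom

end Cfsg.Agent.H7.Pairs
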