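import Mathlib
import Cfsg.Agent.H7_Pairs
import Cfsg.Agent.H7_PairData

set_option autoImplicit false

/-!
Orbits of stabilisers of octads, dodecads, points with octads or dodecads, pairs and triples of points, in `M24`.
-/

namespace Cfsg.Agent.H7.PairFacts

open Cfsg Cfsg.Agent.H7.Golay Cfsg.Agent.H7.Oct Cfsg.Agent.H7.M24 Cfsg.Agent.H7.M24b Cfsg.Agent.H7.M24c
open Cfsg.Agent.H7.M24d Cfsg.Agent.H7.Pairs Cfsg.Agent.H7.PairData
open scoped Pointwise

theorem beq_iff {a b : ℕ} : Nat.beq a b = true ↔ a = b :=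
  ⟨fun h => Nat.eq_of_beq_eq_true h, fun h => by rw [h]; exact Nat.beq_refl b⟩

theorem inter_card (a b : ℕ) : (ofMask a ∩ ofMask b).card = pc (Nat.land a b) := by
  have h : pc (a &&& b) = (ofMask (a &&& b)).card := (card_ofMask _).symm
  rw [ofMask_and] at h
  exact h.symm

theorem pt_mem_ofMask {i m : ℕ} (hi : i < 24) : pt i ∈ ofMask m ↔ m.testBit i = true := by
  rw [mem_ofMask, ix_pt i hi]

theorem smul_mem_smul {g : Equiv.Perm GolayPt} {p : GolayPt} {s : Finset GolayPt} : g • p ∈ g • s ↔ p ∈ s :=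
  Finset.smul_mem_smul_finset_iff g

/-! ### tests for stabilisers -/

theorem hasM (m : ℕ) (gs : List (List ℕ)) (h : gs.all (fun l => isM24 l && Nat.beq (act l m) m) = true) :
    Has (M24 ⊓ MulAction.stabilizer (Equiv.Perm GolayPt) (ofMask m)) gs :=
  has_stabilizer _ gs _ (fun l hl g hr => by rw [hr.smul_ofMask, beq_iff.1 hl]) h

theorem hasPM (a m : ℕ) (ha : a < 24) (gs : List (List ℕ))
    (h : gs.all (fun l => isM24 l && (Nat.beq (l.getD a 0) a && Nat.beq (act l m) m)) = true) :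
    Has (M24 ⊓ MulAction.stabilizer (Equiv.Perm GolayPt) ((pt a, ofMask m) : GolayPt × Finset GolayPt)) gs :=
  has_stabilizer _ gs (fun l => (Nat.beq (l.getD a 0) a && Nat.beq (act l m) m)) (fun l hl g hr => by
    rw [Bool.and_eq_true] at hl
    refine Prod.ext ?_ ?_
    · show g (pt a) = pt a
      rw [hr.apply_pt ha, beq_iff.1 hl.1]
    · show g • ofMask m = ofMask m
      rw [hr.smul_ofMask, beq_iff.1 hl.2]) h

theorem hasPPM (a b m : ℕ) (ha : a < 24) (hb : b < 24) (gs : List (List ℕ))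
    (h : gs.all (fun l => isM24 l && (Nat.beq (l.getD a 0) a && (Nat.beq (l.getD b 0) b && Nat.beq (act l m) m)))
      = true) :
    Has (M24 ⊓ MulAction.stabilizer (Equiv.Perm GolayPt)
      ((pt a, pt b, ofMask m) : GolayPt × GolayPt × Finset GolayPt)) gs :=
  has_stabilizer _ gs (fun l => (Nat.beq (l.getD a 0) a && (Nat.beq (l.getD b 0) b && Nat.beq (act l m) m)))
    (fun l hl g hr => by
    rw [Bool.and_eq_true, Bool.and_eq_true] at hl
    refine Prod.ext ?_ (Prod.ext ?_ ?_)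
    · show g (pt a) = pt a
      rw [hr.apply_pt ha, beq_iff.1 hl.1]
    · show g (pt b) = pt b
      rw [hr.apply_pt hb, beq_iff.1 hl.2.1]
    · show g • ofMask m = ofMask m
      rw [hr.smul_ofMask, beq_iff.1 hl.2.2]) h

/-- the standard octad -/
def O0 : Finset GolayPt := ofMask 5279

theorem O0_mem : O0 ∈ octads := oct0_mem

/-! ### standardising configurations -/

theorem std_o {o : Finset GolayPt} (ho : o ∈ octads) : ∃ h ∈ M24, h • o = O0 := octad_trans ho O0_mem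

theorem five_in {o : Finset GolayPt} (ho : o ∈ octads) (k : ℕ) (hk : k ≤ 5) (x : Fin k → GolayPt)
    (hx : Function.Injective x) (hxo : ∀ i, x i ∈ o) :
    ∃ y : Fin 5 → GolayPt, Function.Injective y ∧ (∀ i, y i ∈ o) ∧ ∀ i : Fin k, y ⟨i, by omega⟩ = x i := by
  classical
  have h1 : (Finset.univ.image x).card = k := by
    rw [Finset.card_image_of_injective _ hx, Finset.card_univ, Fintype.card_fin]
  obtain ⟨u, hu, huc⟩ := Finset.exists_subset_card_eq (s := o \ Finset.univ.image x) (n := 5 - k) (by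
    have h2 : (Finset.univ.image x) ⊆ o := by
      intro p hp
      obtain ⟨i, _, rfl⟩ := Finset.mem_image.1 hp
      exact hxo i
    rw [Finset.card_sdiff_of_subset h2, h1, ho.2]
    omega)
  let e := (u.equivFinOfCardEq huc).symm
  refine ⟨fun i => if h : (i : ℕ) < k then x ⟨i, h⟩ else (e ⟨i - k, by omega⟩ : GolayPt), ?_, ?_, ?_⟩
  · intro i j hij
    have hne : ∀ (a : Fin k) (b : Fin (5 - k)), x a ≠ (e b : GolayPt) := by
      intro a b h
      have h3 := hu (e b).2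
      rw [Finset.mem_sdiff] at h3
      exact h3.2 (h ▸ Finset.mem_image_of_mem _ (Finset.mem_univ a))
    by_cases h1 : (i : ℕ) < k <;> by_cases h2 : (j : ℕ) < k
    · simp only [h1, h2, dif_pos] at hij
      have := congrArg Fin.val (hx hij)
      exact Fin.ext this
    · simp only [h1, h2, dif_pos, dif_neg, not_false_eq_true] at hij
      exact absurd hij (hne _ _)
    · simp only [h1, h2, dif_pos, dif_neg, not_false_eq_true] at hij
      exact absurd hij.symm (hne _ _)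
    · simp only [h1, h2, dif_neg, not_false_eq_true] at hij
      have := congrArg Fin.val (e.injective (Subtype.ext hij))
      simp only at this
      apply Fin.ext
      omega
  · intro i
    by_cases h1 : (i : ℕ) < k
    · simp only [h1, dif_pos]; exact hxo _
    · simp only [h1, dif_neg, not_false_eq_true]
      exact (Finset.mem_sdiff.1 (hu (e _).2)).1
  · intro i
    simp only [i.2, dif_pos]

theorem pt_lt5_mem (i : ℕ) (hi : i < 5) : pt i ∈ O0 := by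
  rw [O0, pt_mem_ofMask (by omega)]
  have : ∀ i, i < 5 → Nat.testBit 5279 i = true := by decide
  exact this i hi

/-- `k ≤ 5` points of an octad to the first points of the standard octad -/
theorem std_in {o : Finset GolayPt} (ho : o ∈ octads) (k : ℕ) (hk : k ≤ 5) (x : Fin k → GolayPt)
    (hx : Function.Injective x) (hxo : ∀ i, x i ∈ o) : ∃ h ∈ M24, h • o = O0 ∧ ∀ i : Fin k, h (x i) = pt i := by
  obtain ⟨y, hy, hyo, hyx⟩ := five_in ho k hk x hx hxo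
  obtain ⟨g, hg, h1, h2⟩ := octad_five_trans ho O0_mem y (fun i => pt i) hy (by
    intro i j hij
    exact Fin.ext ((pt_inj (by omega) (by omega)).1 hij)) hyo (fun i => pt_lt5_mem i i.2)
  refine ⟨g, hg, h1, fun i => ?_⟩
  rw [← hyx i, h2]

/-- the same with a sixth point outside the octad -/
theorem std_out {o : Finset GolayPt} (ho : o ∈ octads) (k : ℕ) (hk : k ≤ 5) (x : Fin k → GolayPt)
    (hx : Function.Injective x) (hxo : ∀ i, x i ∈ o) {z : GolayPt} (hz : z ∉ o) :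
    ∃ h ∈ M24, h • o = O0 ∧ (∀ i : Fin k, h (x i) = pt i) ∧ h z = pt 5 := by
  obtain ⟨y, hy, hyo, hyx⟩ := five_in ho k hk x hx hxo
  obtain ⟨g, hg, h1, h2⟩ := six_std y hy ho hyo z hz
  refine ⟨g, hg, ?_, fun i => ?_, h2⟩
  · apply eq_of_five ((smul_mem_octads_iff hg).2 ho) O0_mem
    have h3 : ((Finset.univ : Finset (Fin 5)).image fun i : Fin 5 => pt i).card = 5 := by decide
    rw [← h3]
    apply Finset.card_le_card
    intro p hp
    obtain ⟨i, _, rfl⟩ := Finset.mem_image.1 hp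
    rw [Finset.mem_inter]
    refine ⟨?_, pt_lt5_mem i i.2⟩
    rw [Finset.mem_smul_finset]
    exact ⟨y i, hyo i, h1 i⟩
  · rw [← hyx i, h1]


/-! case oo0 -/

theorem hP_oo0 : ∀ g ∈ M24, ∀ (X : Finset GolayPt) (s : Finset GolayPt), (fun X s => (X ∩ s).card = 0) X s → (fun X s => (X ∩ s).card = 0) (g • X) (g • s) := by
  intro g _ X s h
  show (g • X ∩ g • s).card = _
  rw [card_smul_inter]; exact h

theorem hq_oo0 : ∀ m ∈ octL, ((fun m => Nat.beq (pc (Nat.land 5279 m)) 0) m = true ↔ (fun X s => (X ∩ s).card = 0) O0 (ofMask m)) := by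
  intro m _
  show _ ↔ (ofMask 5279 ∩ ofMask m).card = _
  rw [inter_card]; exact beq_iff

theorem trans_oo0 {X : Finset GolayPt} (hX : ∃ h ∈ M24, h • X = O0) {s s' : Finset GolayPt}
    (hs : mask s ∈ octL) (hs' : mask s' ∈ octL) (hPs : (fun X s => (X ∩ s).card = 0) X s) (hPs' : (fun X s => (X ∩ s).card = 0) X s') :
    ∃ g ∈ M24, g • X = X ∧ g • s = s' :=
  pair_trans O0 closed_octL (fun X s => (X ∩ s).card = 0) hP_oo0 (fun m => Nat.beq (pc (Nat.land 5279 m)) 0) hq_oo0 g_oo0 (hasM 5279 g_oo0 (by decide +kernel)) 1009728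
    (by decide +kernel) hX hs hs' hPs hPs'

theorem count_oo0 {X : Finset GolayPt} (hX : ∃ h ∈ M24, h • X = O0) :
    {s : Finset GolayPt | mask s ∈ octL ∧ (fun X s => (X ∩ s).card = 0) X s}.ncard = 30 := by
  have h := pair_count O0 closed_octL (fun X s => (X ∩ s).card = 0) hP_oo0 (fun m => Nat.beq (pc (Nat.land 5279 m)) 0) hq_oo0 hX
  have h2 : ((octL).filter (fun m => Nat.beq (pc (Nat.land 5279 m)) 0)).length = 30 := by decide +kernel
  rw [h2] at h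
  exact h

/-! case oo2 -/

theorem hP_oo2 : ∀ g ∈ M24, ∀ (X : Finset GolayPt) (s : Finset GolayPt), (fun X s => (X ∩ s).card = 2) X s → (fun X s => (X ∩ s).card = 2) (g • X) (g • s) := by
  intro g _ X s h
  show (g • X ∩ g • s).card = _
  rw [card_smul_inter]; exact h

theorem hq_oo2 : ∀ m ∈ octL, ((fun m => Nat.beq (pc (Nat.land 5279 m)) 2) m = true ↔ (fun X s => (X ∩ s).card = 2) O0 (ofMask m)) := by
  intro m _
  show _ ↔ (ofMask 5279 ∩ ofMask m).card = _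
  rw [inter_card]; exact beq_iff

theorem trans_oo2 {X : Finset GolayPt} (hX : ∃ h ∈ M24, h • X = O0) {s s' : Finset GolayPt}
    (hs : mask s ∈ octL) (hs' : mask s' ∈ octL) (hPs : (fun X s => (X ∩ s).card = 2) X s) (hPs' : (fun X s => (X ∩ s).card = 2) X s') :
    ∃ g ∈ M24, g • X = X ∧ g • s = s' :=
  pair_trans O0 closed_octL (fun X s => (X ∩ s).card = 2) hP_oo2 (fun m => Nat.beq (pc (Nat.land 5279 m)) 2) hq_oo2 g_oo2 (hasM 5279 g_oo2 (by decide +kernel)) 31554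
    (by decide +kernel) hX hs hs' hPs hPs'

theorem count_oo2 {X : Finset GolayPt} (hX : ∃ h ∈ M24, h • X = O0) :
    {s : Finset GolayPt | mask s ∈ octL ∧ (fun X s => (X ∩ s).card = 2) X s}.ncard = 448 := by
  have h := pair_count O0 closed_octL (fun X s => (X ∩ s).card = 2) hP_oo2 (fun m => Nat.beq (pc (Nat.land 5279 m)) 2) hq_oo2 hX
  have h2 : ((octL).filter (fun m => Nat.beq (pc (Nat.land 5279 m)) 2)).length = 448 := by decide +kernel
  rw [h2] at h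
  exact h

/-! case oo4 -/

theorem hP_oo4 : ∀ g ∈ M24, ∀ (X : Finset GolayPt) (s : Finset GolayPt), (fun X s => (X ∩ s).card = 4) X s → (fun X s => (X ∩ s).card = 4) (g • X) (g • s) := by
  intro g _ X s h
  show (g • X ∩ g • s).card = _
  rw [card_smul_inter]; exact h

theorem hq_oo4 : ∀ m ∈ octL, ((fun m => Nat.beq (pc (Nat.land 5279 m)) 4) m = true ↔ (fun X s => (X ∩ s).card = 4) O0 (ofMask m)) := by
  intro m _
  show _ ↔ (ofMask 5279 ∩ ofMask m).card = _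
  rw [inter_card]; exact beq_iff

theorem trans_oo4 {X : Finset GolayPt} (hX : ∃ h ∈ M24, h • X = O0) {s s' : Finset GolayPt}
    (hs : mask s ∈ octL) (hs' : mask s' ∈ octL) (hPs : (fun X s => (X ∩ s).card = 4) X s) (hPs' : (fun X s => (X ∩ s).card = 4) X s') :
    ∃ g ∈ M24, g • X = X ∧ g • s = s' :=
  pair_trans O0 closed_octL (fun X s => (X ∩ s).card = 4) hP_oo4 (fun m => Nat.beq (pc (Nat.land 5279 m)) 4) hq_oo4 g_oo4 (hasM 5279 g_oo4 (by decide +kernel)) 10558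
    (by decide +kernel) hX hs hs' hPs hPs'

theorem count_oo4 {X : Finset GolayPt} (hX : ∃ h ∈ M24, h • X = O0) :
    {s : Finset GolayPt | mask s ∈ octL ∧ (fun X s => (X ∩ s).card = 4) X s}.ncard = 280 := by
  have h := pair_count O0 closed_octL (fun X s => (X ∩ s).card = 4) hP_oo4 (fun m => Nat.beq (pc (Nat.land 5279 m)) 4) hq_oo4 hX
  have h2 : ((octL).filter (fun m => Nat.beq (pc (Nat.land 5279 m)) 4)).length = 280 := by decide +kernel
  rw [h2] at h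
  exact h

/-! case po2 -/

theorem hP_po2 : ∀ g ∈ M24, ∀ (X : GolayPt × Finset GolayPt) (s : Finset GolayPt), (fun X s => X.1 ∈ s ∧ (X.2 ∩ s).card = 2) X s → (fun X s => X.1 ∈ s ∧ (X.2 ∩ s).card = 2) (g • X) (g • s) := by
  intro g _ X s h
  refine ⟨smul_mem_smul.2 h.1, ?_⟩
  show (g • X.2 ∩ g • s).card = _
  rw [card_smul_inter]; exact h.2

theorem hq_po2 : ∀ m ∈ octL, ((fun m => Nat.testBit m 0 && Nat.beq (pc (Nat.land 5279 m)) 2) m = true ↔ (fun X s => X.1 ∈ s ∧ (X.2 ∩ s).card = 2) ((pt 0, O0) : GolayPt × Finset GolayPt) (ofMask m)) := by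
  intro m _
  show _ ↔ pt 0 ∈ ofMask m ∧ (ofMask 5279 ∩ ofMask m).card = _
  rw [inter_card, pt_mem_ofMask (by norm_num), Bool.and_eq_true, beq_iff]

theorem trans_po2 {X : GolayPt × Finset GolayPt} (hX : ∃ h ∈ M24, h • X = ((pt 0, O0) : GolayPt × Finset GolayPt)) {s s' : Finset GolayPt}
    (hs : mask s ∈ octL) (hs' : mask s' ∈ octL) (hPs : (fun X s => X.1 ∈ s ∧ (X.2 ∩ s).card = 2) X s) (hPs' : (fun X s => X.1 ∈ s ∧ (X.2 ∩ s).card = 2) X s') :
    ∃ g ∈ M24, g • X = X ∧ g • s = s' :=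
  pair_trans ((pt 0, O0) : GolayPt × Finset GolayPt) closed_octL (fun X s => X.1 ∈ s ∧ (X.2 ∩ s).card = 2) hP_po2 (fun m => Nat.testBit m 0 && Nat.beq (pc (Nat.land 5279 m)) 2) hq_po2 g_po2 (hasPM 0 5279 (by norm_num) g_po2 (by decide +kernel)) 52005
    (by decide +kernel) hX hs hs' hPs hPs'

theorem count_po2 {X : GolayPt × Finset GolayPt} (hX : ∃ h ∈ M24, h • X = ((pt 0, O0) : GolayPt × Finset GolayPt)) :
    {s : Finset GolayPt | mask s ∈ octL ∧ (fun X s => X.1 ∈ s ∧ (X.2 ∩ s).card = 2) X s}.ncard = 112 := by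
  have h := pair_count ((pt 0, O0) : GolayPt × Finset GolayPt) closed_octL (fun X s => X.1 ∈ s ∧ (X.2 ∩ s).card = 2) hP_po2 (fun m => Nat.testBit m 0 && Nat.beq (pc (Nat.land 5279 m)) 2) hq_po2 hX
  have h2 : ((octL).filter (fun m => Nat.testBit m 0 && Nat.beq (pc (Nat.land 5279 m)) 2)).length = 112 := by decide +kernel
  rw [h2] at h
  exact h

/-! case po4 -/

theorem hP_po4 : ∀ g ∈ M24, ∀ (X : GolayPt × Finset GolayPt) (s : Finset GolayPt), (fun X s => X.1 ∈ s ∧ (X.2 ∩ s).card = 4) X s → (fun X s => X.1 ∈ s ∧ (X.2 ∩ s).card = 4) (g • X) (g • s) := by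
  intro g _ X s h
  refine ⟨smul_mem_smul.2 h.1, ?_⟩
  show (g • X.2 ∩ g • s).card = _
  rw [card_smul_inter]; exact h.2

theorem hq_po4 : ∀ m ∈ octL, ((fun m => Nat.testBit m 0 && Nat.beq (pc (Nat.land 5279 m)) 4) m = true ↔ (fun X s => X.1 ∈ s ∧ (X.2 ∩ s).card = 4) ((pt 0, O0) : GolayPt × Finset GolayPt) (ofMask m)) := by
  intro m _
  show _ ↔ pt 0 ∈ ofMask m ∧ (ofMask 5279 ∩ ofMask m).card = _
  rw [inter_card, pt_mem_ofMask (by norm_num), Bool.and_eq_true, beq_iff]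

theorem trans_po4 {X : GolayPt × Finset GolayPt} (hX : ∃ h ∈ M24, h • X = ((pt 0, O0) : GolayPt × Finset GolayPt)) {s s' : Finset GolayPt}
    (hs : mask s ∈ octL) (hs' : mask s' ∈ octL) (hPs : (fun X s => X.1 ∈ s ∧ (X.2 ∩ s).card = 4) X s) (hPs' : (fun X s => X.1 ∈ s ∧ (X.2 ∩ s).card = 4) X s') :
    ∃ g ∈ M24, g • X = X ∧ g • s = s' :=
  pair_trans ((pt 0, O0) : GolayPt × Finset GolayPt) closed_octL (fun X s => X.1 ∈ s ∧ (X.2 ∩ s).card = 4) hP_po4 (fun m => Nat.testBit m 0 && Nat.beq (pc (Nat.land 5279 m)) 4) hq_po4 g_po4 (hasPM 0 5279 (by norm_num) g_po4 (by decide +kernel)) 15777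
    (by decide +kernel) hX hs hs' hPs hPs'

theorem count_po4 {X : GolayPt × Finset GolayPt} (hX : ∃ h ∈ M24, h • X = ((pt 0, O0) : GolayPt × Finset GolayPt)) :
    {s : Finset GolayPt | mask s ∈ octL ∧ (fun X s => X.1 ∈ s ∧ (X.2 ∩ s).card = 4) X s}.ncard = 140 := by
  have h := pair_count ((pt 0, O0) : GolayPt × Finset GolayPt) closed_octL (fun X s => X.1 ∈ s ∧ (X.2 ∩ s).card = 4) hP_po4 (fun m => Nat.testBit m 0 && Nat.beq (pc (Nat.land 5279 m)) 4) hq_po4 hX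
  have h2 : ((octL).filter (fun m => Nat.testBit m 0 && Nat.beq (pc (Nat.land 5279 m)) 4)).length = 140 := by decide +kernel
  rw [h2] at h
  exact h

/-! case no0 -/

theorem hP_no0 : ∀ g ∈ M24, ∀ (X : GolayPt × Finset GolayPt) (s : Finset GolayPt), (fun X s => X.1 ∉ s ∧ (X.2 ∩ s).card = 0) X s → (fun X s => X.1 ∉ s ∧ (X.2 ∩ s).card = 0) (g • X) (g • s) := by
  intro g _ X s h
  refine ⟨fun hc => h.1 (smul_mem_smul.1 hc), ?_⟩
  show (g • X.2 ∩ g • s).card = _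
  rw [card_smul_inter]; exact h.2

theorem hq_no0 : ∀ m ∈ octL, ((fun m => !(Nat.testBit m 5) && Nat.beq (pc (Nat.land 5279 m)) 0) m = true ↔ (fun X s => X.1 ∉ s ∧ (X.2 ∩ s).card = 0) ((pt 5, O0) : GolayPt × Finset GolayPt) (ofMask m)) := by
  intro m _
  show _ ↔ pt 5 ∉ ofMask m ∧ (ofMask 5279 ∩ ofMask m).card = _
  rw [inter_card, pt_mem_ofMask (by norm_num), Bool.and_eq_true, beq_iff, Bool.not_eq_true']
  simp

theorem trans_no0 {X : GolayPt × Finset GolayPt} (hX : ∃ h ∈ M24, h • X = ((pt 5, O0) : GolayPt × Finset GolayPt)) {s s' : Finset GolayPt}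
    (hs : mask s ∈ octL) (hs' : mask s' ∈ octL) (hPs : (fun X s => X.1 ∉ s ∧ (X.2 ∩ s).card = 0) X s) (hPs' : (fun X s => X.1 ∉ s ∧ (X.2 ∩ s).card = 0) X s') :
    ∃ g ∈ M24, g • X = X ∧ g • s = s' :=
  pair_trans ((pt 5, O0) : GolayPt × Finset GolayPt) closed_octL (fun X s => X.1 ∉ s ∧ (X.2 ∩ s).card = 0) hP_no0 (fun m => !(Nat.testBit m 5) && Nat.beq (pc (Nat.land 5279 m)) 0) hq_no0 g_no0 (hasPM 5 5279 (by norm_num) g_no0 (by decide +kernel)) 1009728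
    (by decide +kernel) hX hs hs' hPs hPs'

theorem count_no0 {X : GolayPt × Finset GolayPt} (hX : ∃ h ∈ M24, h • X = ((pt 5, O0) : GolayPt × Finset GolayPt)) :
    {s : Finset GolayPt | mask s ∈ octL ∧ (fun X s => X.1 ∉ s ∧ (X.2 ∩ s).card = 0) X s}.ncard = 15 := by
  have h := pair_count ((pt 5, O0) : GolayPt × Finset GolayPt) closed_octL (fun X s => X.1 ∉ s ∧ (X.2 ∩ s).card = 0) hP_no0 (fun m => !(Nat.testBit m 5) && Nat.beq (pc (Nat.land 5279 m)) 0) hq_no0 hX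
  have h2 : ((octL).filter (fun m => !(Nat.testBit m 5) && Nat.beq (pc (Nat.land 5279 m)) 0)).length = 15 := by decide +kernel
  rw [h2] at h
  exact h

/-! case no2 -/

theorem hP_no2 : ∀ g ∈ M24, ∀ (X : GolayPt × Finset GolayPt) (s : Finset GolayPt), (fun X s => X.1 ∉ s ∧ (X.2 ∩ s).card = 2) X s → (fun X s => X.1 ∉ s ∧ (X.2 ∩ s).card = 2) (g • X) (g • s) := by
  intro g _ X s h
  refine ⟨fun hc => h.1 (smul_mem_smul.1 hc), ?_⟩
  show (g • X.2 ∩ g • s).card = _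
  rw [card_smul_inter]; exact h.2

theorem hq_no2 : ∀ m ∈ octL, ((fun m => !(Nat.testBit m 5) && Nat.beq (pc (Nat.land 5279 m)) 2) m = true ↔ (fun X s => X.1 ∉ s ∧ (X.2 ∩ s).card = 2) ((pt 5, O0) : GolayPt × Finset GolayPt) (ofMask m)) := by
  intro m _
  show _ ↔ pt 5 ∉ ofMask m ∧ (ofMask 5279 ∩ ofMask m).card = _
  rw [inter_card, pt_mem_ofMask (by norm_num), Bool.and_eq_true, beq_iff, Bool.not_eq_true']
  simp

theorem trans_no2 {X : GolayPt × Finset GolayPt} (hX : ∃ h ∈ M24, h • X = ((pt 5, O0) : GolayPt × Finset GolayPt)) {s s' : Finset GolayPt}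
    (hs : mask s ∈ octL) (hs' : mask s' ∈ octL) (hPs : (fun X s => X.1 ∉ s ∧ (X.2 ∩ s).card = 2) X s) (hPs' : (fun X s => X.1 ∉ s ∧ (X.2 ∩ s).card = 2) X s') :
    ∃ g ∈ M24, g • X = X ∧ g • s = s' :=
  pair_trans ((pt 5, O0) : GolayPt × Finset GolayPt) closed_octL (fun X s => X.1 ∉ s ∧ (X.2 ∩ s).card = 2) hP_no2 (fun m => !(Nat.testBit m 5) && Nat.beq (pc (Nat.land 5279 m)) 2) hq_no2 g_no2 (hasPM 5 5279 (by norm_num) g_no2 (by decide +kernel)) 31554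
    (by decide +kernel) hX hs hs' hPs hPs'

theorem count_no2 {X : GolayPt × Finset GolayPt} (hX : ∃ h ∈ M24, h • X = ((pt 5, O0) : GolayPt × Finset GolayPt)) :
    {s : Finset GolayPt | mask s ∈ octL ∧ (fun X s => X.1 ∉ s ∧ (X.2 ∩ s).card = 2) X s}.ncard = 280 := by
  have h := pair_count ((pt 5, O0) : GolayPt × Finset GolayPt) closed_octL (fun X s => X.1 ∉ s ∧ (X.2 ∩ s).card = 2) hP_no2 (fun m => !(Nat.testBit m 5) && Nat.beq (pc (Nat.land 5279 m)) 2) hq_no2 hX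
  have h2 : ((octL).filter (fun m => !(Nat.testBit m 5) && Nat.beq (pc (Nat.land 5279 m)) 2)).length = 280 := by decide +kernel
  rw [h2] at h
  exact h

/-! case no4 -/

theorem hP_no4 : ∀ g ∈ M24, ∀ (X : GolayPt × Finset GolayPt) (s : Finset GolayPt), (fun X s => X.1 ∉ s ∧ (X.2 ∩ s).card = 4) X s → (fun X s => X.1 ∉ s ∧ (X.2 ∩ s).card = 4) (g • X) (g • s) := by
  intro g _ X s h
  refine ⟨fun hc => h.1 (smul_mem_smul.1 hc), ?_⟩
  show (g • X.2 ∩ g • s).card = _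
  rw [card_smul_inter]; exact h.2

theorem hq_no4 : ∀ m ∈ octL, ((fun m => !(Nat.testBit m 5) && Nat.beq (pc (Nat.land 5279 m)) 4) m = true ↔ (fun X s => X.1 ∉ s ∧ (X.2 ∩ s).card = 4) ((pt 5, O0) : GolayPt × Finset GolayPt) (ofMask m)) := by
  intro m _
  show _ ↔ pt 5 ∉ ofMask m ∧ (ofMask 5279 ∩ ofMask m).card = _
  rw [inter_card, pt_mem_ofMask (by norm_num), Bool.and_eq_true, beq_iff, Bool.not_eq_true']
  simp

theorem trans_no4 {X : GolayPt × Finset GolayPt} (hX : ∃ h ∈ M24, h • X = ((pt 5, O0) : GolayPt × Finset GolayPt)) {s s' : Finset GolayPt}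
    (hs : mask s ∈ octL) (hs' : mask s' ∈ octL) (hPs : (fun X s => X.1 ∉ s ∧ (X.2 ∩ s).card = 4) X s) (hPs' : (fun X s => X.1 ∉ s ∧ (X.2 ∩ s).card = 4) X s') :
    ∃ g ∈ M24, g • X = X ∧ g • s = s' :=
  pair_trans ((pt 5, O0) : GolayPt × Finset GolayPt) closed_octL (fun X s => X.1 ∉ s ∧ (X.2 ∩ s).card = 4) hP_no4 (fun m => !(Nat.testBit m 5) && Nat.beq (pc (Nat.land 5279 m)) 4) hq_no4 g_no4 (hasPM 5 5279 (by norm_num) g_no4 (by decide +kernel)) 36294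
    (by decide +kernel) hX hs hs' hPs hPs'

theorem count_no4 {X : GolayPt × Finset GolayPt} (hX : ∃ h ∈ M24, h • X = ((pt 5, O0) : GolayPt × Finset GolayPt)) :
    {s : Finset GolayPt | mask s ∈ octL ∧ (fun X s => X.1 ∉ s ∧ (X.2 ∩ s).card = 4) X s}.ncard = 210 := by
  have h := pair_count ((pt 5, O0) : GolayPt × Finset GolayPt) closed_octL (fun X s => X.1 ∉ s ∧ (X.2 ∩ s).card = 4) hP_no4 (fun m => !(Nat.testBit m 5) && Nat.beq (pc (Nat.land 5279 m)) 4) hq_no4 hX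
  have h2 : ((octL).filter (fun m => !(Nat.testBit m 5) && Nat.beq (pc (Nat.land 5279 m)) 4)).length = 210 := by decide +kernel
  rw [h2] at h
  exact h

/-! case ppo2 -/

theorem hP_ppo2 : ∀ g ∈ M24, ∀ (X : GolayPt × GolayPt × Finset GolayPt) (s : Finset GolayPt), (fun X s => X.1 ∈ s ∧ X.2.1 ∈ s ∧ (X.2.2 ∩ s).card = 2) X s → (fun X s => X.1 ∈ s ∧ X.2.1 ∈ s ∧ (X.2.2 ∩ s).card = 2) (g • X) (g • s) := by
  intro g _ X s h
  refine ⟨smul_mem_smul.2 h.1, smul_mem_smul.2 h.2.1, ?_⟩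
  show (g • X.2.2 ∩ g • s).card = _
  rw [card_smul_inter]; exact h.2.2

theorem hq_ppo2 : ∀ m ∈ octL, ((fun m => Nat.testBit m 0 && (Nat.testBit m 1 && Nat.beq (pc (Nat.land 5279 m)) 2)) m = true ↔ (fun X s => X.1 ∈ s ∧ X.2.1 ∈ s ∧ (X.2.2 ∩ s).card = 2) ((pt 0, pt 1, O0) : GolayPt × GolayPt × Finset GolayPt) (ofMask m)) := by
  intro m _
  show _ ↔ pt 0 ∈ ofMask m ∧ pt 1 ∈ ofMask m ∧ (ofMask 5279 ∩ ofMask m).card = _
  rw [inter_card, pt_mem_ofMask (by norm_num), pt_mem_ofMask (by norm_num), Bool.and_eq_true, Bool.and_eq_true,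
    beq_iff]

theorem trans_ppo2 {X : GolayPt × GolayPt × Finset GolayPt} (hX : ∃ h ∈ M24, h • X = ((pt 0, pt 1, O0) : GolayPt × GolayPt × Finset GolayPt)) {s s' : Finset GolayPt}
    (hs : mask s ∈ octL) (hs' : mask s' ∈ octL) (hPs : (fun X s => X.1 ∈ s ∧ X.2.1 ∈ s ∧ (X.2.2 ∩ s).card = 2) X s) (hPs' : (fun X s => X.1 ∈ s ∧ X.2.1 ∈ s ∧ (X.2.2 ∩ s).card = 2) X s') :
    ∃ g ∈ M24, g • X = X ∧ g • s = s' :=
  pair_trans ((pt 0, pt 1, O0) : GolayPt × GolayPt × Finset GolayPt) closed_octL (fun X s => X.1 ∈ s ∧ X.2.1 ∈ s ∧ (X.2.2 ∩ s).card = 2) hP_ppo2 (fun m => Nat.testBit m 0 && (Nat.testBit m 1 && Nat.beq (pc (Nat.land 5279 m)) 2)) hq_ppo2 g_ppo2 (hasPPM 0 1 5279 (by norm_num) (by norm_num) g_ppo2 (by decide +kernel)) 352547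
    (by decide +kernel) hX hs hs' hPs hPs'

theorem count_ppo2 {X : GolayPt × GolayPt × Finset GolayPt} (hX : ∃ h ∈ M24, h • X = ((pt 0, pt 1, O0) : GolayPt × GolayPt × Finset GolayPt)) :
    {s : Finset GolayPt | mask s ∈ octL ∧ (fun X s => X.1 ∈ s ∧ X.2.1 ∈ s ∧ (X.2.2 ∩ s).card = 2) X s}.ncard = 16 := by
  have h := pair_count ((pt 0, pt 1, O0) : GolayPt × GolayPt × Finset GolayPt) closed_octL (fun X s => X.1 ∈ s ∧ X.2.1 ∈ s ∧ (X.2.2 ∩ s).card = 2) hP_ppo2 (fun m => Nat.testBit m 0 && (Nat.testBit m 1 && Nat.beq (pc (Nat.land 5279 m)) 2)) hq_ppo2 hX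
  have h2 : ((octL).filter (fun m => Nat.testBit m 0 && (Nat.testBit m 1 && Nat.beq (pc (Nat.land 5279 m)) 2))).length = 16 := by decide +kernel
  rw [h2] at h
  exact h

/-! case ppo4 -/

theorem hP_ppo4 : ∀ g ∈ M24, ∀ (X : GolayPt × GolayPt × Finset GolayPt) (s : Finset GolayPt), (fun X s => X.1 ∈ s ∧ X.2.1 ∈ s ∧ (X.2.2 ∩ s).card = 4) X s → (fun X s => X.1 ∈ s ∧ X.2.1 ∈ s ∧ (X.2.2 ∩ s).card = 4) (g • X) (g • s) := by
  intro g _ X s h
  refine ⟨smul_mem_smul.2 h.1, smul_mem_smul.2 h.2.1, ?_⟩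
  show (g • X.2.2 ∩ g • s).card = _
  rw [card_smul_inter]; exact h.2.2

theorem hq_ppo4 : ∀ m ∈ octL, ((fun m => Nat.testBit m 0 && (Nat.testBit m 1 && Nat.beq (pc (Nat.land 5279 m)) 4)) m = true ↔ (fun X s => X.1 ∈ s ∧ X.2.1 ∈ s ∧ (X.2.2 ∩ s).card = 4) ((pt 0, pt 1, O0) : GolayPt × GolayPt × Finset GolayPt) (ofMask m)) := by
  intro m _
  show _ ↔ pt 0 ∈ ofMask m ∧ pt 1 ∈ ofMask m ∧ (ofMask 5279 ∩ ofMask m).card = _
  rw [inter_card, pt_mem_ofMask (by norm_num), pt_mem_ofMask (by norm_num), Bool.and_eq_true, Bool.and_eq_true,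
    beq_iff]

theorem trans_ppo4 {X : GolayPt × GolayPt × Finset GolayPt} (hX : ∃ h ∈ M24, h • X = ((pt 0, pt 1, O0) : GolayPt × GolayPt × Finset GolayPt)) {s s' : Finset GolayPt}
    (hs : mask s ∈ octL) (hs' : mask s' ∈ octL) (hPs : (fun X s => X.1 ∈ s ∧ X.2.1 ∈ s ∧ (X.2.2 ∩ s).card = 4) X s) (hPs' : (fun X s => X.1 ∈ s ∧ X.2.1 ∈ s ∧ (X.2.2 ∩ s).card = 4) X s') :
    ∃ g ∈ M24, g • X = X ∧ g • s = s' :=
  pair_trans ((pt 0, pt 1, O0) : GolayPt × GolayPt × Finset GolayPt) closed_octL (fun X s => X.1 ∈ s ∧ X.2.1 ∈ s ∧ (X.2.2 ∩ s).card = 4) hP_ppo4 (fun m => Nat.testBit m 0 && (Nat.testBit m 1 && Nat.beq (pc (Nat.land 5279 m)) 4)) hq_ppo4 g_ppo4 (hasPPM 0 1 5279 (by norm_num) (by norm_num) g_ppo4 (by decide +kernel)) 18147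
    (by decide +kernel) hX hs hs' hPs hPs'

theorem count_ppo4 {X : GolayPt × GolayPt × Finset GolayPt} (hX : ∃ h ∈ M24, h • X = ((pt 0, pt 1, O0) : GolayPt × GolayPt × Finset GolayPt)) :
    {s : Finset GolayPt | mask s ∈ octL ∧ (fun X s => X.1 ∈ s ∧ X.2.1 ∈ s ∧ (X.2.2 ∩ s).card = 4) X s}.ncard = 60 := by
  have h := pair_count ((pt 0, pt 1, O0) : GolayPt × GolayPt × Finset GolayPt) closed_octL (fun X s => X.1 ∈ s ∧ X.2.1 ∈ s ∧ (X.2.2 ∩ s).card = 4) hP_ppo4 (fun m => Nat.testBit m 0 && (Nat.testBit m 1 && Nat.beq (pc (Nat.land 5279 m)) 4)) hq_ppo4 hX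
  have h2 : ((octL).filter (fun m => Nat.testBit m 0 && (Nat.testBit m 1 && Nat.beq (pc (Nat.land 5279 m)) 4))).length = 60 := by decide +kernel
  rw [h2] at h
  exact h

/-! case pno2 -/

theorem hP_pno2 : ∀ g ∈ M24, ∀ (X : GolayPt × GolayPt × Finset GolayPt) (s : Finset GolayPt), (fun X s => X.1 ∈ s ∧ X.2.1 ∉ s ∧ (X.2.2 ∩ s).card = 2) X s → (fun X s => X.1 ∈ s ∧ X.2.1 ∉ s ∧ (X.2.2 ∩ s).card = 2) (g • X) (g • s) := by
  intro g _ X s h
  refine ⟨smul_mem_smul.2 h.1, fun hc => h.2.1 (smul_mem_smul.1 hc), ?_⟩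
  show (g • X.2.2 ∩ g • s).card = _
  rw [card_smul_inter]; exact h.2.2

theorem hq_pno2 : ∀ m ∈ octL, ((fun m => Nat.testBit m 0 && (!(Nat.testBit m 5) && Nat.beq (pc (Nat.land 5279 m)) 2)) m = true ↔ (fun X s => X.1 ∈ s ∧ X.2.1 ∉ s ∧ (X.2.2 ∩ s).card = 2) ((pt 0, pt 5, O0) : GolayPt × GolayPt × Finset GolayPt) (ofMask m)) := by
  intro m _
  show _ ↔ pt 0 ∈ ofMask m ∧ pt 5 ∉ ofMask m ∧ (ofMask 5279 ∩ ofMask m).card = _
  rw [inter_card, pt_mem_ofMask (by norm_num), pt_mem_ofMask (by norm_num), Bool.and_eq_true, Bool.and_eq_true,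
    beq_iff, Bool.not_eq_true']
  simp

theorem trans_pno2 {X : GolayPt × GolayPt × Finset GolayPt} (hX : ∃ h ∈ M24, h • X = ((pt 0, pt 5, O0) : GolayPt × GolayPt × Finset GolayPt)) {s s' : Finset GolayPt}
    (hs : mask s ∈ octL) (hs' : mask s' ∈ octL) (hPs : (fun X s => X.1 ∈ s ∧ X.2.1 ∉ s ∧ (X.2.2 ∩ s).card = 2) X s) (hPs' : (fun X s => X.1 ∈ s ∧ X.2.1 ∉ s ∧ (X.2.2 ∩ s).card = 2) X s') :
    ∃ g ∈ M24, g • X = X ∧ g • s = s' :=
  pair_trans ((pt 0, pt 5, O0) : GolayPt × GolayPt × Finset GolayPt) closed_octL (fun X s => X.1 ∈ s ∧ X.2.1 ∉ s ∧ (X.2.2 ∩ s).card = 2) hP_pno2 (fun m => Nat.testBit m 0 && (!(Nat.testBit m 5) && Nat.beq (pc (Nat.land 5279 m)) 2)) hq_pno2 g_pno2 (hasPPM 0 5 5279 (by norm_num) (by norm_num) g_pno2 (by decide +kernel)) 175681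
    (by decide +kernel) hX hs hs' hPs hPs'

theorem count_pno2 {X : GolayPt × GolayPt × Finset GolayPt} (hX : ∃ h ∈ M24, h • X = ((pt 0, pt 5, O0) : GolayPt × GolayPt × Finset GolayPt)) :
    {s : Finset GolayPt | mask s ∈ octL ∧ (fun X s => X.1 ∈ s ∧ X.2.1 ∉ s ∧ (X.2.2 ∩ s).card = 2) X s}.ncard = 70 := by
  have h := pair_count ((pt 0, pt 5, O0) : GolayPt × GolayPt × Finset GolayPt) closed_octL (fun X s => X.1 ∈ s ∧ X.2.1 ∉ s ∧ (X.2.2 ∩ s).card = 2) hP_pno2 (fun m => Nat.testBit m 0 && (!(Nat.testBit m 5) && Nat.beq (pc (Nat.land 5279 m)) 2)) hq_pno2 hX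
  have h2 : ((octL).filter (fun m => Nat.testBit m 0 && (!(Nat.testBit m 5) && Nat.beq (pc (Nat.land 5279 m)) 2))).length = 70 := by decide +kernel
  rw [h2] at h
  exact h

/-! case pno4 -/

theorem hP_pno4 : ∀ g ∈ M24, ∀ (X : GolayPt × GolayPt × Finset GolayPt) (s : Finset GolayPt), (fun X s => X.1 ∈ s ∧ X.2.1 ∉ s ∧ (X.2.2 ∩ s).card = 4) X s → (fun X s => X.1 ∈ s ∧ X.2.1 ∉ s ∧ (X.2.2 ∩ s).card = 4) (g • X) (g • s) := by
  intro g _ X s h
  refine ⟨smul_mem_smul.2 h.1, fun hc => h.2.1 (smul_mem_smul.1 hc), ?_⟩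
  show (g • X.2.2 ∩ g • s).card = _
  rw [card_smul_inter]; exact h.2.2

theorem hq_pno4 : ∀ m ∈ octL, ((fun m => Nat.testBit m 0 && (!(Nat.testBit m 5) && Nat.beq (pc (Nat.land 5279 m)) 4)) m = true ↔ (fun X s => X.1 ∈ s ∧ X.2.1 ∉ s ∧ (X.2.2 ∩ s).card = 4) ((pt 0, pt 5, O0) : GolayPt × GolayPt × Finset GolayPt) (ofMask m)) := by
  intro m _
  show _ ↔ pt 0 ∈ ofMask m ∧ pt 5 ∉ ofMask m ∧ (ofMask 5279 ∩ ofMask m).card = _
  rw [inter_card, pt_mem_ofMask (by norm_num), pt_mem_ofMask (by norm_num), Bool.and_eq_true, Bool.and_eq_true,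
    beq_iff, Bool.not_eq_true']
  simp

theorem trans_pno4 {X : GolayPt × GolayPt × Finset GolayPt} (hX : ∃ h ∈ M24, h • X = ((pt 0, pt 5, O0) : GolayPt × GolayPt × Finset GolayPt)) {s s' : Finset GolayPt}
    (hs : mask s ∈ octL) (hs' : mask s' ∈ octL) (hPs : (fun X s => X.1 ∈ s ∧ X.2.1 ∉ s ∧ (X.2.2 ∩ s).card = 4) X s) (hPs' : (fun X s => X.1 ∈ s ∧ X.2.1 ∉ s ∧ (X.2.2 ∩ s).card = 4) X s') :
    ∃ g ∈ M24, g • X = X ∧ g • s = s' :=
  pair_trans ((pt 0, pt 5, O0) : GolayPt × GolayPt × Finset GolayPt) closed_octL (fun X s => X.1 ∈ s ∧ X.2.1 ∉ s ∧ (X.2.2 ∩ s).card = 4) hP_pno4 (fun m => Nat.testBit m 0 && (!(Nat.testBit m 5) && Nat.beq (pc (Nat.land 5279 m)) 4)) hq_pno4 g_pno4 (hasPPM 0 5 5279 (by norm_num) (by norm_num) g_pno4 (by decide +kernel)) 39257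
    (by decide +kernel) hX hs hs' hPs hPs'

theorem count_pno4 {X : GolayPt × GolayPt × Finset GolayPt} (hX : ∃ h ∈ M24, h • X = ((pt 0, pt 5, O0) : GolayPt × GolayPt × Finset GolayPt)) :
    {s : Finset GolayPt | mask s ∈ octL ∧ (fun X s => X.1 ∈ s ∧ X.2.1 ∉ s ∧ (X.2.2 ∩ s).card = 4) X s}.ncard = 105 := by
  have h := pair_count ((pt 0, pt 5, O0) : GolayPt × GolayPt × Finset GolayPt) closed_octL (fun X s => X.1 ∈ s ∧ X.2.1 ∉ s ∧ (X.2.2 ∩ s).card = 4) hP_pno4 (fun m => Nat.testBit m 0 && (!(Nat.testBit m 5) && Nat.beq (pc (Nat.land 5279 m)) 4)) hq_pno4 hX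
  have h2 : ((octL).filter (fun m => Nat.testBit m 0 && (!(Nat.testBit m 5) && Nat.beq (pc (Nat.land 5279 m)) 4))).length = 105 := by decide +kernel
  rw [h2] at h
  exact h

/-! case dd4 -/

theorem hP_dd4 : ∀ g ∈ M24, ∀ (X : Finset GolayPt) (s : Finset GolayPt), (fun X s => (X ∩ s).card = 4) X s → (fun X s => (X ∩ s).card = 4) (g • X) (g • s) := by
  intro g _ X s h
  show (g • X ∩ g • s).card = _
  rw [card_smul_inter]; exact h

theorem hq_dd4 : ∀ m ∈ dodL, ((fun m => Nat.beq (pc (Nat.land 28637 m)) 4) m = true ↔ (fun X s => (X ∩ s).card = 4) D0 (ofMask m)) := by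
  intro m _
  show _ ↔ (ofMask 28637 ∩ ofMask m).card = _
  rw [inter_card]; exact beq_iff

theorem trans_dd4 {X : Finset GolayPt} (hX : ∃ h ∈ M24, h • X = D0) {s s' : Finset GolayPt}
    (hs : mask s ∈ dodL) (hs' : mask s' ∈ dodL) (hPs : (fun X s => (X ∩ s).card = 4) X s) (hPs' : (fun X s => (X ∩ s).card = 4) X s') :
    ∃ g ∈ M24, g • X = X ∧ g • s = s' :=
  pair_trans D0 closed_dodL (fun X s => (X ∩ s).card = 4) hP_dd4 (fun m => Nat.beq (pc (Nat.land 28637 m)) 4) hq_dd4 g_dd4 (hasM 28637 g_dd4 (by decide +kernel)) 1038375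
    (by decide +kernel) hX hs hs' hPs hPs'

theorem count_dd4 {X : Finset GolayPt} (hX : ∃ h ∈ M24, h • X = D0) :
    {s : Finset GolayPt | mask s ∈ dodL ∧ (fun X s => (X ∩ s).card = 4) X s}.ncard = 495 := by
  have h := pair_count D0 closed_dodL (fun X s => (X ∩ s).card = 4) hP_dd4 (fun m => Nat.beq (pc (Nat.land 28637 m)) 4) hq_dd4 hX
  have h2 : ((dodL).filter (fun m => Nat.beq (pc (Nat.land 28637 m)) 4)).length = 495 := by decide +kernel
  rw [h2] at h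
  exact h

/-! case dd6 -/

theorem hP_dd6 : ∀ g ∈ M24, ∀ (X : Finset GolayPt) (s : Finset GolayPt), (fun X s => (X ∩ s).card = 6) X s → (fun X s => (X ∩ s).card = 6) (g • X) (g • s) := by
  intro g _ X s h
  show (g • X ∩ g • s).card = _
  rw [card_smul_inter]; exact h

theorem hq_dd6 : ∀ m ∈ dodL, ((fun m => Nat.beq (pc (Nat.land 28637 m)) 6) m = true ↔ (fun X s => (X ∩ s).card = 6) D0 (ofMask m)) := by
  intro m _
  show _ ↔ (ofMask 28637 ∩ ofMask m).card = _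
  rw [inter_card]; exact beq_iff

theorem trans_dd6 {X : Finset GolayPt} (hX : ∃ h ∈ M24, h • X = D0) {s s' : Finset GolayPt}
    (hs : mask s ∈ dodL) (hs' : mask s' ∈ dodL) (hPs : (fun X s => (X ∩ s).card = 6) X s) (hPs' : (fun X s => (X ∩ s).card = 6) X s') :
    ∃ g ∈ M24, g • X = X ∧ g • s = s' :=
  pair_trans D0 closed_dodL (fun X s => (X ∩ s).card = 6) hP_dd6 (fun m => Nat.beq (pc (Nat.land 28637 m)) 6) hq_dd6 g_dd6 (hasM 28637 g_dd6 (by decide +kernel)) 236787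
    (by decide +kernel) hX hs hs' hPs hPs'

theorem count_dd6 {X : Finset GolayPt} (hX : ∃ h ∈ M24, h • X = D0) :
    {s : Finset GolayPt | mask s ∈ dodL ∧ (fun X s => (X ∩ s).card = 6) X s}.ncard = 1584 := by
  have h := pair_count D0 closed_dodL (fun X s => (X ∩ s).card = 6) hP_dd6 (fun m => Nat.beq (pc (Nat.land 28637 m)) 6) hq_dd6 hX
  have h2 : ((dodL).filter (fun m => Nat.beq (pc (Nat.land 28637 m)) 6)).length = 1584 := by decide +kernel
  rw [h2] at h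
  exact h

/-! case dd8 -/

theorem hP_dd8 : ∀ g ∈ M24, ∀ (X : Finset GolayPt) (s : Finset GolayPt), (fun X s => (X ∩ s).card = 8) X s → (fun X s => (X ∩ s).card = 8) (g • X) (g • s) := by
  intro g _ X s h
  show (g • X ∩ g • s).card = _
  rw [card_smul_inter]; exact h

theorem hq_dd8 : ∀ m ∈ dodL, ((fun m => Nat.beq (pc (Nat.land 28637 m)) 8) m = true ↔ (fun X s => (X ∩ s).card = 8) D0 (ofMask m)) := by
  intro m _
  show _ ↔ (ofMask 28637 ∩ ofMask m).card = _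
  rw [inter_card]; exact beq_iff

theorem trans_dd8 {X : Finset GolayPt} (hX : ∃ h ∈ M24, h • X = D0) {s s' : Finset GolayPt}
    (hs : mask s ∈ dodL) (hs' : mask s' ∈ dodL) (hPs : (fun X s => (X ∩ s).card = 8) X s) (hPs' : (fun X s => (X ∩ s).card = 8) X s') :
    ∃ g ∈ M24, g • X = X ∧ g • s = s' :=
  pair_trans D0 closed_dodL (fun X s => (X ∩ s).card = 8) hP_dd8 (fun m => Nat.beq (pc (Nat.land 28637 m)) 8) hq_dd8 g_dd8 (hasM 28637 g_dd8 (by decide +kernel)) 57274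
    (by decide +kernel) hX hs hs' hPs hPs'

theorem count_dd8 {X : Finset GolayPt} (hX : ∃ h ∈ M24, h • X = D0) :
    {s : Finset GolayPt | mask s ∈ dodL ∧ (fun X s => (X ∩ s).card = 8) X s}.ncard = 495 := by
  have h := pair_count D0 closed_dodL (fun X s => (X ∩ s).card = 8) hP_dd8 (fun m => Nat.beq (pc (Nat.land 28637 m)) 8) hq_dd8 hX
  have h2 : ((dodL).filter (fun m => Nat.beq (pc (Nat.land 28637 m)) 8)).length = 495 := by decide +kernel
  rw [h2] at h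
  exact h

/-! case pdd4 -/

theorem hP_pdd4 : ∀ g ∈ M24, ∀ (X : GolayPt × Finset GolayPt) (s : Finset GolayPt), (fun X s => X.1 ∈ s ∧ (X.2 ∩ s).card = 4) X s → (fun X s => X.1 ∈ s ∧ (X.2 ∩ s).card = 4) (g • X) (g • s) := by
  intro g _ X s h
  refine ⟨smul_mem_smul.2 h.1, ?_⟩
  show (g • X.2 ∩ g • s).card = _
  rw [card_smul_inter]; exact h.2

theorem hq_pdd4 : ∀ m ∈ dodL, ((fun m => Nat.testBit m 0 && Nat.beq (pc (Nat.land 28637 m)) 4) m = true ↔ (fun X s => X.1 ∈ s ∧ (X.2 ∩ s).card = 4) ((pt 0, D0) : GolayPt × Finset GolayPt) (ofMask m)) := by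
  intro m _
  show _ ↔ pt 0 ∈ ofMask m ∧ (ofMask 28637 ∩ ofMask m).card = _
  rw [inter_card, pt_mem_ofMask (by norm_num), Bool.and_eq_true, beq_iff]

theorem trans_pdd4 {X : GolayPt × Finset GolayPt} (hX : ∃ h ∈ M24, h • X = ((pt 0, D0) : GolayPt × Finset GolayPt)) {s s' : Finset GolayPt}
    (hs : mask s ∈ dodL) (hs' : mask s' ∈ dodL) (hPs : (fun X s => X.1 ∈ s ∧ (X.2 ∩ s).card = 4) X s) (hPs' : (fun X s => X.1 ∈ s ∧ (X.2 ∩ s).card = 4) X s') :
    ∃ g ∈ M24, g • X = X ∧ g • s = s' :=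
  pair_trans ((pt 0, D0) : GolayPt × Finset GolayPt) closed_dodL (fun X s => X.1 ∈ s ∧ (X.2 ∩ s).card = 4) hP_pdd4 (fun m => Nat.testBit m 0 && Nat.beq (pc (Nat.land 28637 m)) 4) hq_pdd4 g_pdd4 (hasPM 0 28637 (by norm_num) g_pdd4 (by decide +kernel)) 1038375
    (by decide +kernel) hX hs hs' hPs hPs'

theorem count_pdd4 {X : GolayPt × Finset GolayPt} (hX : ∃ h ∈ M24, h • X = ((pt 0, D0) : GolayPt × Finset GolayPt)) :
    {s : Finset GolayPt | mask s ∈ dodL ∧ (fun X s => X.1 ∈ s ∧ (X.2 ∩ s).card = 4) X s}.ncard = 165 := by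
  have h := pair_count ((pt 0, D0) : GolayPt × Finset GolayPt) closed_dodL (fun X s => X.1 ∈ s ∧ (X.2 ∩ s).card = 4) hP_pdd4 (fun m => Nat.testBit m 0 && Nat.beq (pc (Nat.land 28637 m)) 4) hq_pdd4 hX
  have h2 : ((dodL).filter (fun m => Nat.testBit m 0 && Nat.beq (pc (Nat.land 28637 m)) 4)).length = 165 := by decide +kernel
  rw [h2] at h
  exact h

/-! case pdd6 -/

theorem hP_pdd6 : ∀ g ∈ M24, ∀ (X : GolayPt × Finset GolayPt) (s : Finset GolayPt), (fun X s => X.1 ∈ s ∧ (X.2 ∩ s).card = 6) X s → (fun X s => X.1 ∈ s ∧ (X.2 ∩ s).card = 6) (g • X) (g • s) := by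
  intro g _ X s h
  refine ⟨smul_mem_smul.2 h.1, ?_⟩
  show (g • X.2 ∩ g • s).card = _
  rw [card_smul_inter]; exact h.2

theorem hq_pdd6 : ∀ m ∈ dodL, ((fun m => Nat.testBit m 0 && Nat.beq (pc (Nat.land 28637 m)) 6) m = true ↔ (fun X s => X.1 ∈ s ∧ (X.2 ∩ s).card = 6) ((pt 0, D0) : GolayPt × Finset GolayPt) (ofMask m)) := by
  intro m _
  show _ ↔ pt 0 ∈ ofMask m ∧ (ofMask 28637 ∩ ofMask m).card = _
  rw [inter_card, pt_mem_ofMask (by norm_num), Bool.and_eq_true, beq_iff]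

theorem trans_pdd6 {X : GolayPt × Finset GolayPt} (hX : ∃ h ∈ M24, h • X = ((pt 0, D0) : GolayPt × Finset GolayPt)) {s s' : Finset GolayPt}
    (hs : mask s ∈ dodL) (hs' : mask s' ∈ dodL) (hPs : (fun X s => X.1 ∈ s ∧ (X.2 ∩ s).card = 6) X s) (hPs' : (fun X s => X.1 ∈ s ∧ (X.2 ∩ s).card = 6) X s') :
    ∃ g ∈ M24, g • X = X ∧ g • s = s' :=
  pair_trans ((pt 0, D0) : GolayPt × Finset GolayPt) closed_dodL (fun X s => X.1 ∈ s ∧ (X.2 ∩ s).card = 6) hP_pdd6 (fun m => Nat.testBit m 0 && Nat.beq (pc (Nat.land 28637 m)) 6) hq_pdd6 g_pdd6 (hasPM 0 28637 (by norm_num) g_pdd6 (by decide +kernel)) 236787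
    (by decide +kernel) hX hs hs' hPs hPs'

theorem count_pdd6 {X : GolayPt × Finset GolayPt} (hX : ∃ h ∈ M24, h • X = ((pt 0, D0) : GolayPt × Finset GolayPt)) :
    {s : Finset GolayPt | mask s ∈ dodL ∧ (fun X s => X.1 ∈ s ∧ (X.2 ∩ s).card = 6) X s}.ncard = 792 := by
  have h := pair_count ((pt 0, D0) : GolayPt × Finset GolayPt) closed_dodL (fun X s => X.1 ∈ s ∧ (X.2 ∩ s).card = 6) hP_pdd6 (fun m => Nat.testBit m 0 && Nat.beq (pc (Nat.land 28637 m)) 6) hq_pdd6 hX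
  have h2 : ((dodL).filter (fun m => Nat.testBit m 0 && Nat.beq (pc (Nat.land 28637 m)) 6)).length = 792 := by decide +kernel
  rw [h2] at h
  exact h

/-! case pdd8 -/

theorem hP_pdd8 : ∀ g ∈ M24, ∀ (X : GolayPt × Finset GolayPt) (s : Finset GolayPt), (fun X s => X.1 ∈ s ∧ (X.2 ∩ s).card = 8) X s → (fun X s => X.1 ∈ s ∧ (X.2 ∩ s).card = 8) (g • X) (g • s) := by
  intro g _ X s h
  refine ⟨smul_mem_smul.2 h.1, ?_⟩
  show (g • X.2 ∩ g • s).card = _
  rw [card_smul_inter]; exact h.2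

theorem hq_pdd8 : ∀ m ∈ dodL, ((fun m => Nat.testBit m 0 && Nat.beq (pc (Nat.land 28637 m)) 8) m = true ↔ (fun X s => X.1 ∈ s ∧ (X.2 ∩ s).card = 8) ((pt 0, D0) : GolayPt × Finset GolayPt) (ofMask m)) := by
  intro m _
  show _ ↔ pt 0 ∈ ofMask m ∧ (ofMask 28637 ∩ ofMask m).card = _
  rw [inter_card, pt_mem_ofMask (by norm_num), Bool.and_eq_true, beq_iff]

theorem trans_pdd8 {X : GolayPt × Finset GolayPt} (hX : ∃ h ∈ M24, h • X = ((pt 0, D0) : GolayPt × Finset GolayPt)) {s s' : Finset GolayPt}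
    (hs : mask s ∈ dodL) (hs' : mask s' ∈ dodL) (hPs : (fun X s => X.1 ∈ s ∧ (X.2 ∩ s).card = 8) X s) (hPs' : (fun X s => X.1 ∈ s ∧ (X.2 ∩ s).card = 8) X s') :
    ∃ g ∈ M24, g • X = X ∧ g • s = s' :=
  pair_trans ((pt 0, D0) : GolayPt × Finset GolayPt) closed_dodL (fun X s => X.1 ∈ s ∧ (X.2 ∩ s).card = 8) hP_pdd8 (fun m => Nat.testBit m 0 && Nat.beq (pc (Nat.land 28637 m)) 8) hq_pdd8 g_pdd8 (hasPM 0 28637 (by norm_num) g_pdd8 (by decide +kernel)) 89455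
    (by decide +kernel) hX hs hs' hPs hPs'

theorem count_pdd8 {X : GolayPt × Finset GolayPt} (hX : ∃ h ∈ M24, h • X = ((pt 0, D0) : GolayPt × Finset GolayPt)) :
    {s : Finset GolayPt | mask s ∈ dodL ∧ (fun X s => X.1 ∈ s ∧ (X.2 ∩ s).card = 8) X s}.ncard = 330 := by
  have h := pair_count ((pt 0, D0) : GolayPt × Finset GolayPt) closed_dodL (fun X s => X.1 ∈ s ∧ (X.2 ∩ s).card = 8) hP_pdd8 (fun m => Nat.testBit m 0 && Nat.beq (pc (Nat.land 28637 m)) 8) hq_pdd8 hX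
  have h2 : ((dodL).filter (fun m => Nat.testBit m 0 && Nat.beq (pc (Nat.land 28637 m)) 8)).length = 330 := by decide +kernel
  rw [h2] at h
  exact h

/-! case t2 -/

theorem hP_t2 : ∀ g ∈ M24, ∀ (X : Finset GolayPt) (s : Finset GolayPt), (fun X s => (X ∩ s).card = 2) X s → (fun X s => (X ∩ s).card = 2) (g • X) (g • s) := by
  intro g _ X s h
  show (g • X ∩ g • s).card = _
  rw [card_smul_inter]; exact h

theorem hq_t2 : ∀ m ∈ (subs 24 3), ((fun m => Nat.beq (pc (Nat.land 7 m)) 2) m = true ↔ (fun X s => (X ∩ s).card = 2) (ofMask 7) (ofMask m)) := by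
  intro m _
  show _ ↔ (ofMask 7 ∩ ofMask m).card = _
  rw [inter_card]; exact beq_iff

theorem trans_t2 {X : Finset GolayPt} (hX : ∃ h ∈ M24, h • X = (ofMask 7)) {s s' : Finset GolayPt}
    (hs : mask s ∈ (subs 24 3)) (hs' : mask s' ∈ (subs 24 3)) (hPs : (fun X s => (X ∩ s).card = 2) X s) (hPs' : (fun X s => (X ∩ s).card = 2) X s') :
    ∃ g ∈ M24, g • X = X ∧ g • s = s' :=
  pair_trans (ofMask 7) (closed_subs 3) (fun X s => (X ∩ s).card = 2) hP_t2 (fun m => Nat.beq (pc (Nat.land 7 m)) 2) hq_t2 g_t2 (hasM 7 g_t2 (by decide +kernel)) 11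
    (by decide +kernel) hX hs hs' hPs hPs'

theorem count_t2 {X : Finset GolayPt} (hX : ∃ h ∈ M24, h • X = (ofMask 7)) :
    {s : Finset GolayPt | mask s ∈ (subs 24 3) ∧ (fun X s => (X ∩ s).card = 2) X s}.ncard = 63 := by
  have h := pair_count (ofMask 7) (closed_subs 3) (fun X s => (X ∩ s).card = 2) hP_t2 (fun m => Nat.beq (pc (Nat.land 7 m)) 2) hq_t2 hX
  have h2 : (((subs 24 3)).filter (fun m => Nat.beq (pc (Nat.land 7 m)) 2)).length = 63 := by decide +kernel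
  rw [h2] at h
  exact h

/-! case t1 -/

theorem hP_t1 : ∀ g ∈ M24, ∀ (X : Finset GolayPt) (s : Finset GolayPt), (fun X s => (X ∩ s).card = 1) X s → (fun X s => (X ∩ s).card = 1) (g • X) (g • s) := by
  intro g _ X s h
  show (g • X ∩ g • s).card = _
  rw [card_smul_inter]; exact h

theorem hq_t1 : ∀ m ∈ (subs 24 3), ((fun m => Nat.beq (pc (Nat.land 7 m)) 1) m = true ↔ (fun X s => (X ∩ s).card = 1) (ofMask 7) (ofMask m)) := by
  intro m _
  show _ ↔ (ofMask 7 ∩ ofMask m).card = _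
  rw [inter_card]; exact beq_iff

theorem trans_t1 {X : Finset GolayPt} (hX : ∃ h ∈ M24, h • X = (ofMask 7)) {s s' : Finset GolayPt}
    (hs : mask s ∈ (subs 24 3)) (hs' : mask s' ∈ (subs 24 3)) (hPs : (fun X s => (X ∩ s).card = 1) X s) (hPs' : (fun X s => (X ∩ s).card = 1) X s') :
    ∃ g ∈ M24, g • X = X ∧ g • s = s' :=
  pair_trans (ofMask 7) (closed_subs 3) (fun X s => (X ∩ s).card = 1) hP_t1 (fun m => Nat.beq (pc (Nat.land 7 m)) 1) hq_t1 g_t1 (hasM 7 g_t1 (by decide +kernel)) 25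
    (by decide +kernel) hX hs hs' hPs hPs'

theorem count_t1 {X : Finset GolayPt} (hX : ∃ h ∈ M24, h • X = (ofMask 7)) :
    {s : Finset GolayPt | mask s ∈ (subs 24 3) ∧ (fun X s => (X ∩ s).card = 1) X s}.ncard = 630 := by
  have h := pair_count (ofMask 7) (closed_subs 3) (fun X s => (X ∩ s).card = 1) hP_t1 (fun m => Nat.beq (pc (Nat.land 7 m)) 1) hq_t1 hX
  have h2 : (((subs 24 3)).filter (fun m => Nat.beq (pc (Nat.land 7 m)) 1)).length = 630 := by decide +kernel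
  rw [h2] at h
  exact h

/-! ### triples with a common octad -/

/-- the 21 octads through the first three points -/
def octT : List ℕ := [5279, 45159, 140167, 459847, 551943, 622863, 786999, 1065303, 1116327, 2183687, 2263063, 3416079,
  4196943, 4505735, 5902343, 6292775, 8536111, 8657159, 9471495, 11010247, 12656663]

theorem octT_eq : ∀ m, m ∈ octT ↔ m ∈ octL ∧ Nat.land m 7 = 7 := by
  have h1 : octL.all (fun m => !(Nat.beq (Nat.land m 7) 7) || octT.contains m) = true := by decide +kernel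
  have h2 : octT.all (fun m => isCode m && (Nat.beq (pc m) 8 && Nat.beq (Nat.land m 7) 7)) = true := by decide +kernel
  intro m
  constructor
  · intro hm
    have h3 := List.all_eq_true.1 h2 m hm
    rw [Bool.and_eq_true, Bool.and_eq_true] at h3
    exact ⟨mem_octL.2 ⟨mem_codeL_iff.2 h3.1, beq_iff.1 h3.2.1⟩, beq_iff.1 h3.2.2⟩
  · rintro ⟨hm, h7⟩
    have h3 := List.all_eq_true.1 h1 m hm
    rw [h7] at h3
    simpa using h3

/-- some octad contains both sets -/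
def Co (X s : Finset GolayPt) : Prop := ∃ o ∈ octads, X ∪ s ⊆ o

theorem Co_smul {g : Equiv.Perm GolayPt} (hg : g ∈ M24) {X s : Finset GolayPt} : Co (g • X) (g • s) ↔ Co X s := by
  constructor
  · rintro ⟨o, ho, h⟩
    refine ⟨g⁻¹ • o, (smul_mem_octads_iff (inv_mem hg)).2 ho, ?_⟩
    rw [← Finset.smul_finset_union] at h
    have := Finset.smul_finset_subset_smul_finset (a := g⁻¹) h
    rwa [inv_smul_smul] at this
  · rintro ⟨o, ho, h⟩
    refine ⟨g • o, (smul_mem_octads_iff hg).2 ho, ?_⟩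
    rw [← Finset.smul_finset_union]
    exact Finset.smul_finset_subset_smul_finset h

theorem subset_iff {a b : ℕ} (ha : a < 16777216) : ofMask a ⊆ ofMask b ↔ Nat.land a b = a := ofMask_subset ha

theorem Co_std {m : ℕ} (hm : m < 16777216) :
    octT.any (fun o => Nat.beq (Nat.land (Nat.lor 7 m) o) (Nat.lor 7 m)) = true ↔ Co (ofMask 7) (ofMask m) := by
  have hlt : Nat.lor 7 m < 16777216 := Nat.or_lt_two_pow (n := 24) (by norm_num) hm
  have hun : ofMask 7 ∪ ofMask m = ofMask (Nat.lor 7 m) := (ofMask_or 7 m).symm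
  rw [List.any_eq_true]
  constructor
  · rintro ⟨o, ho, h⟩
    refine ⟨ofMask o, (ofMask_mem_octads (octL_lt ((octT_eq o).1 ho).1)).2 ((octT_eq o).1 ho).1, ?_⟩
    rw [hun, subset_iff hlt]
    exact beq_iff.1 h
  · rintro ⟨o, ho, h⟩
    rw [mem_octads_iff] at ho
    rw [← ofMask_mask o, hun, subset_iff hlt] at h
    refine ⟨mask o, (octT_eq _).2 ⟨ho, ?_⟩, beq_iff.2 h⟩
    have h7 : Nat.land 7 (Nat.lor 7 m) = 7 := by
      apply Nat.eq_of_testBit_eq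
      intro i
      show (7 &&& (7 ||| m)).testBit i = _
      rw [Nat.testBit_and, Nat.testBit_or]
      cases Nat.testBit 7 i <;> simp
    have h8 : Nat.land (mask o) 7 = 7 := by
      apply Nat.eq_of_testBit_eq
      intro i
      have h1 := congrArg (fun z => Nat.testBit z i) h
      have h2 := congrArg (fun z => Nat.testBit z i) h7
      change ((Nat.lor 7 m) &&& (mask o)).testBit i = (Nat.lor 7 m).testBit i at h1
      change (7 &&& (Nat.lor 7 m)).testBit i = (7 : ℕ).testBit i at h2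
      change ((mask o) &&& 7).testBit i = (7 : ℕ).testBit i
      rw [Nat.testBit_and] at h1 h2 ⊢
      revert h1 h2
      cases (mask o).testBit i <;> cases Nat.testBit 7 i <;> cases (Nat.lor 7 m).testBit i <;> simp
    exact h8

theorem disj_std {a m : ℕ} (ha : a < 16777216) : Nat.beq (Nat.land a m) 0 = true ↔ Disjoint (ofMask a) (ofMask m) := by
  rw [ofMask_disjoint ha]
  exact beq_iff

/-! case t0i -/

theorem hP_t0i : ∀ g ∈ M24, ∀ (X : Finset GolayPt) (s : Finset GolayPt), (fun X s => Disjoint X s ∧ Co X s) X s → (fun X s => Disjoint X s ∧ Co X s) (g • X) (g • s) := by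
  intro g hg X s h
  refine ⟨?_, (Co_smul hg).2 h.2⟩
  rw [← Finset.card_eq_zero.trans Finset.disjoint_iff_inter_eq_empty.symm, card_smul_inter]
  exact (Finset.card_eq_zero.trans Finset.disjoint_iff_inter_eq_empty.symm).2 h.1

theorem hq_t0i : ∀ m ∈ (subs 24 3), ((fun m => Nat.beq (Nat.land 7 m) 0 && octT.any (fun o => Nat.beq (Nat.land (Nat.lor 7 m) o) (Nat.lor 7 m))) m = true ↔ (fun X s => Disjoint X s ∧ Co X s) (ofMask 7) (ofMask m)) := by
  intro m hm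
  rw [Bool.and_eq_true, disj_std (by norm_num), Co_std ((mem_subs24.1 hm).1)]

theorem trans_t0i {X : Finset GolayPt} (hX : ∃ h ∈ M24, h • X = (ofMask 7)) {s s' : Finset GolayPt}
    (hs : mask s ∈ (subs 24 3)) (hs' : mask s' ∈ (subs 24 3)) (hPs : (fun X s => Disjoint X s ∧ Co X s) X s) (hPs' : (fun X s => Disjoint X s ∧ Co X s) X s') :
    ∃ g ∈ M24, g • X = X ∧ g • s = s' :=
  pair_trans (ofMask 7) (closed_subs 3) (fun X s => Disjoint X s ∧ Co X s) hP_t0i (fun m => Nat.beq (Nat.land 7 m) 0 && octT.any (fun o => Nat.beq (Nat.land (Nat.lor 7 m) o) (Nat.lor 7 m))) hq_t0i g_t0i (hasM 7 g_t0i (by decide +kernel)) 152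
    (by decide +kernel) hX hs hs' hPs hPs'

theorem count_t0i {X : Finset GolayPt} (hX : ∃ h ∈ M24, h • X = (ofMask 7)) :
    {s : Finset GolayPt | mask s ∈ (subs 24 3) ∧ (fun X s => Disjoint X s ∧ Co X s) X s}.ncard = 210 := by
  have h := pair_count (ofMask 7) (closed_subs 3) (fun X s => Disjoint X s ∧ Co X s) hP_t0i (fun m => Nat.beq (Nat.land 7 m) 0 && octT.any (fun o => Nat.beq (Nat.land (Nat.lor 7 m) o) (Nat.lor 7 m))) hq_t0i hX
  have h2 : (((subs 24 3)).filter (fun m => Nat.beq (Nat.land 7 m) 0 && octT.any (fun o => Nat.beq (Nat.land (Nat.lor 7 m) o) (Nat.lor 7 m)))).length = 210 := by decide +kernel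
  rw [h2] at h
  exact h

/-! case t0n -/

theorem hP_t0n : ∀ g ∈ M24, ∀ (X : Finset GolayPt) (s : Finset GolayPt), (fun X s => Disjoint X s ∧ ¬ Co X s) X s → (fun X s => Disjoint X s ∧ ¬ Co X s) (g • X) (g • s) := by
  intro g hg X s h
  refine ⟨?_, fun hc => h.2 ((Co_smul hg).1 hc)⟩
  rw [← Finset.card_eq_zero.trans Finset.disjoint_iff_inter_eq_empty.symm, card_smul_inter]
  exact (Finset.card_eq_zero.trans Finset.disjoint_iff_inter_eq_empty.symm).2 h.1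

theorem hq_t0n : ∀ m ∈ (subs 24 3), ((fun m => Nat.beq (Nat.land 7 m) 0 && !(octT.any (fun o => Nat.beq (Nat.land (Nat.lor 7 m) o) (Nat.lor 7 m)))) m = true ↔ (fun X s => Disjoint X s ∧ ¬ Co X s) (ofMask 7) (ofMask m)) := by
  intro m hm
  show _ ↔ Disjoint _ _ ∧ ¬ Co _ _
  rw [Bool.and_eq_true, disj_std (by norm_num), Bool.not_eq_true', ← Co_std ((mem_subs24.1 hm).1), Bool.not_eq_true]

theorem trans_t0n {X : Finset GolayPt} (hX : ∃ h ∈ M24, h • X = (ofMask 7)) {s s' : Finset GolayPt}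
    (hs : mask s ∈ (subs 24 3)) (hs' : mask s' ∈ (subs 24 3)) (hPs : (fun X s => Disjoint X s ∧ ¬ Co X s) X s) (hPs' : (fun X s => Disjoint X s ∧ ¬ Co X s) X s') :
    ∃ g ∈ M24, g • X = X ∧ g • s = s' :=
  pair_trans (ofMask 7) (closed_subs 3) (fun X s => Disjoint X s ∧ ¬ Co X s) hP_t0n (fun m => Nat.beq (Nat.land 7 m) 0 && !(octT.any (fun o => Nat.beq (Nat.land (Nat.lor 7 m) o) (Nat.lor 7 m)))) hq_t0n g_t0n (hasM 7 g_t0n (by decide +kernel)) 56
    (by decide +kernel) hX hs hs' hPs hPs'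

theorem count_t0n {X : Finset GolayPt} (hX : ∃ h ∈ M24, h • X = (ofMask 7)) :
    {s : Finset GolayPt | mask s ∈ (subs 24 3) ∧ (fun X s => Disjoint X s ∧ ¬ Co X s) X s}.ncard = 1120 := by
  have h := pair_count (ofMask 7) (closed_subs 3) (fun X s => Disjoint X s ∧ ¬ Co X s) hP_t0n (fun m => Nat.beq (Nat.land 7 m) 0 && !(octT.any (fun o => Nat.beq (Nat.land (Nat.lor 7 m) o) (Nat.lor 7 m)))) hq_t0n hX
  have h2 : (((subs 24 3)).filter (fun m => Nat.beq (Nat.land 7 m) 0 && !(octT.any (fun o => Nat.beq (Nat.land (Nat.lor 7 m) o) (Nat.lor 7 m))))).length = 1120 := by decide +kernel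
  rw [h2] at h
  exact h

/-! case p1 -/

theorem hP_p1 : ∀ g ∈ M24, ∀ (X : Finset GolayPt) (s : Finset GolayPt), (fun X s => (X ∩ s).card = 1) X s → (fun X s => (X ∩ s).card = 1) (g • X) (g • s) := by
  intro g _ X s h
  show (g • X ∩ g • s).card = _
  rw [card_smul_inter]; exact h

theorem hq_p1 : ∀ m ∈ (subs 24 2), ((fun m => Nat.beq (pc (Nat.land 3 m)) 1) m = true ↔ (fun X s => (X ∩ s).card = 1) (ofMask 3) (ofMask m)) := by
  intro m _
  show _ ↔ (ofMask 3 ∩ ofMask m).card = _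
  rw [inter_card]; exact beq_iff

theorem trans_p1 {X : Finset GolayPt} (hX : ∃ h ∈ M24, h • X = (ofMask 3)) {s s' : Finset GolayPt}
    (hs : mask s ∈ (subs 24 2)) (hs' : mask s' ∈ (subs 24 2)) (hPs : (fun X s => (X ∩ s).card = 1) X s) (hPs' : (fun X s => (X ∩ s).card = 1) X s') :
    ∃ g ∈ M24, g • X = X ∧ g • s = s' :=
  pair_trans (ofMask 3) (closed_subs 2) (fun X s => (X ∩ s).card = 1) hP_p1 (fun m => Nat.beq (pc (Nat.land 3 m)) 1) hq_p1 g_p1 (hasM 3 g_p1 (by decide +kernel)) 5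
    (by decide +kernel) hX hs hs' hPs hPs'

theorem count_p1 {X : Finset GolayPt} (hX : ∃ h ∈ M24, h • X = (ofMask 3)) :
    {s : Finset GolayPt | mask s ∈ (subs 24 2) ∧ (fun X s => (X ∩ s).card = 1) X s}.ncard = 44 := by
  have h := pair_count (ofMask 3) (closed_subs 2) (fun X s => (X ∩ s).card = 1) hP_p1 (fun m => Nat.beq (pc (Nat.land 3 m)) 1) hq_p1 hX
  have h2 : (((subs 24 2)).filter (fun m => Nat.beq (pc (Nat.land 3 m)) 1)).length = 44 := by decide +kernel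
  rw [h2] at h
  exact h

/-! case p0 -/

theorem hP_p0 : ∀ g ∈ M24, ∀ (X : Finset GolayPt) (s : Finset GolayPt), (fun X s => (X ∩ s).card = 0) X s → (fun X s => (X ∩ s).card = 0) (g • X) (g • s) := by
  intro g _ X s h
  show (g • X ∩ g • s).card = _
  rw [card_smul_inter]; exact h

theorem hq_p0 : ∀ m ∈ (subs 24 2), ((fun m => Nat.beq (pc (Nat.land 3 m)) 0) m = true ↔ (fun X s => (X ∩ s).card = 0) (ofMask 3) (ofMask m)) := by
  intro m _
  show _ ↔ (ofMask 3 ∩ ofMask m).card = _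
  rw [inter_card]; exact beq_iff

theorem trans_p0 {X : Finset GolayPt} (hX : ∃ h ∈ M24, h • X = (ofMask 3)) {s s' : Finset GolayPt}
    (hs : mask s ∈ (subs 24 2)) (hs' : mask s' ∈ (subs 24 2)) (hPs : (fun X s => (X ∩ s).card = 0) X s) (hPs' : (fun X s => (X ∩ s).card = 0) X s') :
    ∃ g ∈ M24, g • X = X ∧ g • s = s' :=
  pair_trans (ofMask 3) (closed_subs 2) (fun X s => (X ∩ s).card = 0) hP_p0 (fun m => Nat.beq (pc (Nat.land 3 m)) 0) hq_p0 g_p0 (hasM 3 g_p0 (by decide +kernel)) 12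
    (by decide +kernel) hX hs hs' hPs hPs'

theorem count_p0 {X : Finset GolayPt} (hX : ∃ h ∈ M24, h • X = (ofMask 3)) :
    {s : Finset GolayPt | mask s ∈ (subs 24 2) ∧ (fun X s => (X ∩ s).card = 0) X s}.ncard = 231 := by
  have h := pair_count (ofMask 3) (closed_subs 2) (fun X s => (X ∩ s).card = 0) hP_p0 (fun m => Nat.beq (pc (Nat.land 3 m)) 0) hq_p0 hX
  have h2 : (((subs 24 2)).filter (fun m => Nat.beq (pc (Nat.land 3 m)) 0)).length = 231 := by decide +kernel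
  rw [h2] at h
  exact h

/-! ### pairs of points with two fixed points -/

/-- the 5 octads through the first four points -/
def octQ : List ℕ := [5279, 622863, 3416079, 4196943, 8536111]

theorem octQ_eq : ∀ m, m ∈ octQ ↔ m ∈ octL ∧ Nat.land m 15 = 15 := by
  have h1 : octL.all (fun m => !(Nat.beq (Nat.land m 15) 15) || octQ.contains m) = true := by decide +kernel
  have h2 : octQ.all (fun m => isCode m && (Nat.beq (pc m) 8 && Nat.beq (Nat.land m 15) 15)) = true := by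
    decide +kernel
  intro m
  constructor
  · intro hm
    have h3 := List.all_eq_true.1 h2 m hm
    rw [Bool.and_eq_true, Bool.and_eq_true] at h3
    exact ⟨mem_octL.2 ⟨mem_codeL_iff.2 h3.1, beq_iff.1 h3.2.1⟩, beq_iff.1 h3.2.2⟩
  · rintro ⟨hm, h7⟩
    have h3 := List.all_eq_true.1 h1 m hm
    rw [h7] at h3
    simpa using h3

/-- some octad contains the two points and both sets -/
def Co2 (X : GolayPt × GolayPt × Finset GolayPt) (t : Finset GolayPt) : Prop :=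
  ∃ o ∈ octads, X.1 ∈ o ∧ X.2.1 ∈ o ∧ X.2.2 ∪ t ⊆ o

theorem Co2_smul {g : Equiv.Perm GolayPt} (hg : g ∈ M24) {X : GolayPt × GolayPt × Finset GolayPt}
    {s : Finset GolayPt} : Co2 (g • X) (g • s) ↔ Co2 X s := by
  constructor
  · rintro ⟨o, ho, h1, h2, h⟩
    have e : g • (g⁻¹ • o) = o := smul_inv_smul g o
    refine ⟨g⁻¹ • o, (smul_mem_octads_iff (inv_mem hg)).2 ho, ?_, ?_, ?_⟩
    · rw [← smul_mem_smul (g := g), e]; exact h1
    · rw [← smul_mem_smul (g := g), e]; exact h2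
    · have h : g • X.2.2 ∪ g • s ⊆ o := h
      rw [← Finset.smul_finset_union] at h
      have := Finset.smul_finset_subset_smul_finset (a := g⁻¹) h
      rwa [inv_smul_smul] at this
  · rintro ⟨o, ho, h1, h2, h⟩
    refine ⟨g • o, (smul_mem_octads_iff hg).2 ho, smul_mem_smul.2 h1, smul_mem_smul.2 h2, ?_⟩
    show g • X.2.2 ∪ g • s ⊆ g • o
    rw [← Finset.smul_finset_union]
    exact Finset.smul_finset_subset_smul_finset h

theorem Co2_std {m : ℕ} (hm : m < 16777216) :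
    octQ.any (fun o => Nat.beq (Nat.land (Nat.lor 15 m) o) (Nat.lor 15 m)) = true ↔
      Co2 (pt 0, pt 1, ofMask 12) (ofMask m) := by
  have hlt : Nat.lor 15 m < 16777216 := Nat.or_lt_two_pow (n := 24) (by norm_num) hm
  have hlt2 : Nat.lor 12 m < 16777216 := Nat.or_lt_two_pow (n := 24) (by norm_num) hm
  have hun : ofMask 15 ∪ ofMask m = ofMask (Nat.lor 15 m) := (ofMask_or 15 m).symm
  have h15 : ofMask 15 = {pt 0, pt 1} ∪ ofMask 12 := by decide
  have key : ∀ o : Finset GolayPt, ofMask 15 ∪ ofMask m ⊆ o ↔ pt 0 ∈ o ∧ pt 1 ∈ o ∧ ofMask 12 ∪ ofMask m ⊆ o := by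
    intro o
    rw [h15, Finset.union_assoc, Finset.union_subset_iff, Finset.insert_subset_iff, Finset.singleton_subset_iff,
      and_assoc]
  rw [List.any_eq_true]
  constructor
  · rintro ⟨o, ho, h⟩
    refine ⟨ofMask o, (ofMask_mem_octads (octL_lt ((octQ_eq o).1 ho).1)).2 ((octQ_eq o).1 ho).1, ?_⟩
    show pt 0 ∈ ofMask o ∧ pt 1 ∈ ofMask o ∧ ofMask 12 ∪ ofMask m ⊆ ofMask o
    rw [← key, hun, subset_iff hlt]
    exact beq_iff.1 h
  · rintro ⟨o, ho, h⟩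
    rw [mem_octads_iff] at ho
    have h : pt 0 ∈ o ∧ pt 1 ∈ o ∧ ofMask 12 ∪ ofMask m ⊆ o := h
    rw [← key, ← ofMask_mask o, hun, subset_iff hlt] at h
    refine ⟨mask o, (octQ_eq _).2 ⟨ho, ?_⟩, beq_iff.2 h⟩
    have h7 : Nat.land 15 (Nat.lor 15 m) = 15 := by
      apply Nat.eq_of_testBit_eq
      intro i
      show (15 &&& (15 ||| m)).testBit i = _
      rw [Nat.testBit_and, Nat.testBit_or]
      cases Nat.testBit 15 i <;> simp
    apply Nat.eq_of_testBit_eq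
    intro i
    have h1 := congrArg (fun z => Nat.testBit z i) h
    have h2 := congrArg (fun z => Nat.testBit z i) h7
    change ((Nat.lor 15 m) &&& (mask o)).testBit i = (Nat.lor 15 m).testBit i at h1
    change (15 &&& (Nat.lor 15 m)).testBit i = (15 : ℕ).testBit i at h2
    change ((mask o) &&& 15).testBit i = (15 : ℕ).testBit i
    rw [Nat.testBit_and] at h1 h2 ⊢
    revert h1 h2
    cases (mask o).testBit i <;> cases Nat.testBit 15 i <;> cases (Nat.lor 15 m).testBit i <;> simp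

/-! case q1 -/

theorem hP_q1 : ∀ g ∈ M24, ∀ (X : GolayPt × GolayPt × Finset GolayPt) (s : Finset GolayPt), (fun X s => (X.1 ∉ s ∧ X.2.1 ∉ s) ∧ (X.2.2 ∩ s).card = 1) X s → (fun X s => (X.1 ∉ s ∧ X.2.1 ∉ s) ∧ (X.2.2 ∩ s).card = 1) (g • X) (g • s) := by
  intro g _ X s h
  refine ⟨⟨fun hc => h.1.1 (smul_mem_smul.1 hc), fun hc => h.1.2 (smul_mem_smul.1 hc)⟩, ?_⟩
  show (g • X.2.2 ∩ g • s).card = _
  rw [card_smul_inter]; exact h.2

theorem hq_q1 : ∀ m ∈ (subs 24 2), ((fun m => (!(Nat.testBit m 0) && !(Nat.testBit m 1)) && Nat.beq (pc (Nat.land 12 m)) 1) m = true ↔ (fun X s => (X.1 ∉ s ∧ X.2.1 ∉ s) ∧ (X.2.2 ∩ s).card = 1) ((pt 0, pt 1, ofMask 12) : GolayPt × GolayPt × Finset GolayPt) (ofMask m)) := by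
  intro m _
  show _ ↔ (pt 0 ∉ ofMask m ∧ pt 1 ∉ ofMask m) ∧ (ofMask 12 ∩ ofMask m).card = _
  rw [inter_card, pt_mem_ofMask (by norm_num), pt_mem_ofMask (by norm_num), Bool.and_eq_true, Bool.and_eq_true,
    beq_iff, Bool.not_eq_true', Bool.not_eq_true']
  simp

theorem trans_q1 {X : GolayPt × GolayPt × Finset GolayPt} (hX : ∃ h ∈ M24, h • X = ((pt 0, pt 1, ofMask 12) : GolayPt × GolayPt × Finset GolayPt)) {s s' : Finset GolayPt}
    (hs : mask s ∈ (subs 24 2)) (hs' : mask s' ∈ (subs 24 2)) (hPs : (fun X s => (X.1 ∉ s ∧ X.2.1 ∉ s) ∧ (X.2.2 ∩ s).card = 1) X s) (hPs' : (fun X s => (X.1 ∉ s ∧ X.2.1 ∉ s) ∧ (X.2.2 ∩ s).card = 1) X s') :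
    ∃ g ∈ M24, g • X = X ∧ g • s = s' :=
  pair_trans ((pt 0, pt 1, ofMask 12) : GolayPt × GolayPt × Finset GolayPt) (closed_subs 2) (fun X s => (X.1 ∉ s ∧ X.2.1 ∉ s) ∧ (X.2.2 ∩ s).card = 1) hP_q1 (fun m => (!(Nat.testBit m 0) && !(Nat.testBit m 1)) && Nat.beq (pc (Nat.land 12 m)) 1) hq_q1 g_q1 (hasPPM 0 1 12 (by norm_num) (by norm_num) g_q1 (by decide +kernel)) 20
    (by decide +kernel) hX hs hs' hPs hPs'

theorem count_q1 {X : GolayPt × GolayPt × Finset GolayPt} (hX : ∃ h ∈ M24, h • X = ((pt 0, pt 1, ofMask 12) : GolayPt × GolayPt × Finset GolayPt)) :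
    {s : Finset GolayPt | mask s ∈ (subs 24 2) ∧ (fun X s => (X.1 ∉ s ∧ X.2.1 ∉ s) ∧ (X.2.2 ∩ s).card = 1) X s}.ncard = 40 := by
  have h := pair_count ((pt 0, pt 1, ofMask 12) : GolayPt × GolayPt × Finset GolayPt) (closed_subs 2) (fun X s => (X.1 ∉ s ∧ X.2.1 ∉ s) ∧ (X.2.2 ∩ s).card = 1) hP_q1 (fun m => (!(Nat.testBit m 0) && !(Nat.testBit m 1)) && Nat.beq (pc (Nat.land 12 m)) 1) hq_q1 hX
  have h2 : (((subs 24 2)).filter (fun m => (!(Nat.testBit m 0) && !(Nat.testBit m 1)) && Nat.beq (pc (Nat.land 12 m)) 1)).length = 40 := by decide +kernel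
  rw [h2] at h
  exact h

/-! case q0i -/

theorem hP_q0i : ∀ g ∈ M24, ∀ (X : GolayPt × GolayPt × Finset GolayPt) (s : Finset GolayPt), (fun X s => (X.1 ∉ s ∧ X.2.1 ∉ s) ∧ (X.2.2 ∩ s).card = 0 ∧ Co2 X s) X s → (fun X s => (X.1 ∉ s ∧ X.2.1 ∉ s) ∧ (X.2.2 ∩ s).card = 0 ∧ Co2 X s) (g • X) (g • s) := by
  intro g hg X s h
  refine ⟨⟨fun hc => h.1.1 (smul_mem_smul.1 hc), fun hc => h.1.2 (smul_mem_smul.1 hc)⟩, ?_, (Co2_smul hg).2 h.2.2⟩
  show (g • X.2.2 ∩ g • s).card = _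
  rw [card_smul_inter]; exact h.2.1

theorem hq_q0i : ∀ m ∈ (subs 24 2), ((fun m => (!(Nat.testBit m 0) && !(Nat.testBit m 1)) && (Nat.beq (pc (Nat.land 12 m)) 0 && octQ.any (fun o => Nat.beq (Nat.land (Nat.lor 15 m) o) (Nat.lor 15 m)))) m = true ↔ (fun X s => (X.1 ∉ s ∧ X.2.1 ∉ s) ∧ (X.2.2 ∩ s).card = 0 ∧ Co2 X s) ((pt 0, pt 1, ofMask 12) : GolayPt × GolayPt × Finset GolayPt) (ofMask m)) := by
  intro m hm
  show _ ↔ (pt 0 ∉ ofMask m ∧ pt 1 ∉ ofMask m) ∧ (ofMask 12 ∩ ofMask m).card = _ ∧ Co2 _ _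
  rw [← Co2_std ((mem_subs24.1 hm).1), inter_card, pt_mem_ofMask (by norm_num), pt_mem_ofMask (by norm_num),
    Bool.and_eq_true, Bool.and_eq_true, Bool.and_eq_true, beq_iff, Bool.not_eq_true', Bool.not_eq_true']
  simp

theorem trans_q0i {X : GolayPt × GolayPt × Finset GolayPt} (hX : ∃ h ∈ M24, h • X = ((pt 0, pt 1, ofMask 12) : GolayPt × GolayPt × Finset GolayPt)) {s s' : Finset GolayPt}
    (hs : mask s ∈ (subs 24 2)) (hs' : mask s' ∈ (subs 24 2)) (hPs : (fun X s => (X.1 ∉ s ∧ X.2.1 ∉ s) ∧ (X.2.2 ∩ s).card = 0 ∧ Co2 X s) X s) (hPs' : (fun X s => (X.1 ∉ s ∧ X.2.1 ∉ s) ∧ (X.2.2 ∩ s).card = 0 ∧ Co2 X s) X s') :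
    ∃ g ∈ M24, g • X = X ∧ g • s = s' :=
  pair_trans ((pt 0, pt 1, ofMask 12) : GolayPt × GolayPt × Finset GolayPt) (closed_subs 2) (fun X s => (X.1 ∉ s ∧ X.2.1 ∉ s) ∧ (X.2.2 ∩ s).card = 0 ∧ Co2 X s) hP_q0i (fun m => (!(Nat.testBit m 0) && !(Nat.testBit m 1)) && (Nat.beq (pc (Nat.land 12 m)) 0 && octQ.any (fun o => Nat.beq (Nat.land (Nat.lor 15 m) o) (Nat.lor 15 m)))) hq_q0i g_q0i (hasPPM 0 1 12 (by norm_num) (by norm_num) g_q0i (by decide +kernel)) 144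
    (by decide +kernel) hX hs hs' hPs hPs'

theorem count_q0i {X : GolayPt × GolayPt × Finset GolayPt} (hX : ∃ h ∈ M24, h • X = ((pt 0, pt 1, ofMask 12) : GolayPt × GolayPt × Finset GolayPt)) :
    {s : Finset GolayPt | mask s ∈ (subs 24 2) ∧ (fun X s => (X.1 ∉ s ∧ X.2.1 ∉ s) ∧ (X.2.2 ∩ s).card = 0 ∧ Co2 X s) X s}.ncard = 30 := by
  have h := pair_count ((pt 0, pt 1, ofMask 12) : GolayPt × GolayPt × Finset GolayPt) (closed_subs 2) (fun X s => (X.1 ∉ s ∧ X.2.1 ∉ s) ∧ (X.2.2 ∩ s).card = 0 ∧ Co2 X s) hP_q0i (fun m => (!(Nat.testBit m 0) && !(Nat.testBit m 1)) && (Nat.beq (pc (Nat.land 12 m)) 0 && octQ.any (fun o => Nat.beq (Nat.land (Nat.lor 15 m) o) (Nat.lor 15 m)))) hq_q0i hX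
  have h2 : (((subs 24 2)).filter (fun m => (!(Nat.testBit m 0) && !(Nat.testBit m 1)) && (Nat.beq (pc (Nat.land 12 m)) 0 && octQ.any (fun o => Nat.beq (Nat.land (Nat.lor 15 m) o) (Nat.lor 15 m))))).length = 30 := by decide +kernel
  rw [h2] at h
  exact h

/-! case q0n -/

theorem hP_q0n : ∀ g ∈ M24, ∀ (X : GolayPt × GolayPt × Finset GolayPt) (s : Finset GolayPt), (fun X s => (X.1 ∉ s ∧ X.2.1 ∉ s) ∧ (X.2.2 ∩ s).card = 0 ∧ ¬ Co2 X s) X s → (fun X s => (X.1 ∉ s ∧ X.2.1 ∉ s) ∧ (X.2.2 ∩ s).card = 0 ∧ ¬ Co2 X s) (g • X) (g • s) := by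
  intro g hg X s h
  refine ⟨⟨fun hc => h.1.1 (smul_mem_smul.1 hc), fun hc => h.1.2 (smul_mem_smul.1 hc)⟩, ?_, fun hc => h.2.2 ((Co2_smul hg).1 hc)⟩
  show (g • X.2.2 ∩ g • s).card = _
  rw [card_smul_inter]; exact h.2.1

theorem hq_q0n : ∀ m ∈ (subs 24 2), ((fun m => (!(Nat.testBit m 0) && !(Nat.testBit m 1)) && (Nat.beq (pc (Nat.land 12 m)) 0 && !(octQ.any (fun o => Nat.beq (Nat.land (Nat.lor 15 m) o) (Nat.lor 15 m))))) m = true ↔ (fun X s => (X.1 ∉ s ∧ X.2.1 ∉ s) ∧ (X.2.2 ∩ s).card = 0 ∧ ¬ Co2 X s) ((pt 0, pt 1, ofMask 12) : GolayPt × GolayPt × Finset GolayPt) (ofMask m)) := by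
  intro m hm
  show _ ↔ (pt 0 ∉ ofMask m ∧ pt 1 ∉ ofMask m) ∧ (ofMask 12 ∩ ofMask m).card = _ ∧ ¬ Co2 _ _
  rw [← Co2_std ((mem_subs24.1 hm).1), inter_card, pt_mem_ofMask (by norm_num), pt_mem_ofMask (by norm_num),
    Bool.and_eq_true, Bool.and_eq_true, Bool.and_eq_true, beq_iff, Bool.not_eq_true', Bool.not_eq_true']
  simp

theorem trans_q0n {X : GolayPt × GolayPt × Finset GolayPt} (hX : ∃ h ∈ M24, h • X = ((pt 0, pt 1, ofMask 12) : GolayPt × GolayPt × Finset GolayPt)) {s s' : Finset GolayPt}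
    (hs : mask s ∈ (subs 24 2)) (hs' : mask s' ∈ (subs 24 2)) (hPs : (fun X s => (X.1 ∉ s ∧ X.2.1 ∉ s) ∧ (X.2.2 ∩ s).card = 0 ∧ ¬ Co2 X s) X s) (hPs' : (fun X s => (X.1 ∉ s ∧ X.2.1 ∉ s) ∧ (X.2.2 ∩ s).card = 0 ∧ ¬ Co2 X s) X s') :
    ∃ g ∈ M24, g • X = X ∧ g • s = s' :=
  pair_trans ((pt 0, pt 1, ofMask 12) : GolayPt × GolayPt × Finset GolayPt) (closed_subs 2) (fun X s => (X.1 ∉ s ∧ X.2.1 ∉ s) ∧ (X.2.2 ∩ s).card = 0 ∧ ¬ Co2 X s) hP_q0n (fun m => (!(Nat.testBit m 0) && !(Nat.testBit m 1)) && (Nat.beq (pc (Nat.land 12 m)) 0 && !(octQ.any (fun o => Nat.beq (Nat.land (Nat.lor 15 m) o) (Nat.lor 15 m))))) hq_q0n g_q0n (hasPPM 0 1 12 (by norm_num) (by norm_num) g_q0n (by decide +kernel)) 48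
    (by decide +kernel) hX hs hs' hPs hPs'

theorem count_q0n {X : GolayPt × GolayPt × Finset GolayPt} (hX : ∃ h ∈ M24, h • X = ((pt 0, pt 1, ofMask 12) : GolayPt × GolayPt × Finset GolayPt)) :
    {s : Finset GolayPt | mask s ∈ (subs 24 2) ∧ (fun X s => (X.1 ∉ s ∧ X.2.1 ∉ s) ∧ (X.2.2 ∩ s).card = 0 ∧ ¬ Co2 X s) X s}.ncard = 160 := by
  have h := pair_count ((pt 0, pt 1, ofMask 12) : GolayPt × GolayPt × Finset GolayPt) (closed_subs 2) (fun X s => (X.1 ∉ s ∧ X.2.1 ∉ s) ∧ (X.2.2 ∩ s).card = 0 ∧ ¬ Co2 X s) hP_q0n (fun m => (!(Nat.testBit m 0) && !(Nat.testBit m 1)) && (Nat.beq (pc (Nat.land 12 m)) 0 && !(octQ.any (fun o => Nat.beq (Nat.land (Nat.lor 15 m) o) (Nat.lor 15 m))))) hq_q0n hX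
  have h2 : (((subs 24 2)).filter (fun m => (!(Nat.testBit m 0) && !(Nat.testBit m 1)) && (Nat.beq (pc (Nat.land 12 m)) 0 && !(octQ.any (fun o => Nat.beq (Nat.land (Nat.lor 15 m) o) (Nat.lor 15 m)))))).length = 160 := by decide +kernel
  rw [h2] at h
  exact h

end Cfsg.Agent.H7.PairFacts
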