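import Mathlib
import Cfsg.Agent.H7_PairFacts

set_option autoImplicit false

/-!
Orbits of stabilisers in `M24`.
-/

namespace Cfsg.Agent.H28.Orb

open Cfsg Cfsg.Agent.H7.Golay Cfsg.Agent.H7.Oct Cfsg.Agent.H7.M24 Cfsg.Agent.H7.M24b Cfsg.Agent.H7.PairFacts
open scoped Pointwise

theorem orbit_stab {α β : Type*} [MulAction (Equiv.Perm GolayPt) α] [MulAction (Equiv.Perm GolayPt) β] (X : α)
    (Δ : Set β) (htr : ∀ s ∈ Δ, ∀ s' ∈ Δ, ∃ g ∈ M24, g • X = X ∧ g • s = s')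
    (hinv : ∀ g ∈ M24, g • X = X → ∀ s ∈ Δ, g • s ∈ Δ) {y : β} (hy : y ∈ Δ) :
    MulAction.orbit ↥(MulAction.stabilizer M24 X) y = Δ := by
  ext z
  rw [MulAction.mem_orbit_iff]
  constructor
  · rintro ⟨g, rfl⟩
    exact hinv (g : M24) (g : M24).2 g.2 y hy
  · intro hz
    obtain ⟨g, hg, h1, h2⟩ := htr y hy z hz
    exact ⟨⟨⟨g, hg⟩, h1⟩, h2⟩

theorem card_inf_stab {α β : Type*} [MulAction (Equiv.Perm GolayPt) α] [MulAction (Equiv.Perm GolayPt) β] (X : α)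
    (Δ : Set β) (htr : ∀ s ∈ Δ, ∀ s' ∈ Δ, ∃ g ∈ M24, g • X = X ∧ g • s = s')
    (hinv : ∀ g ∈ M24, g • X = X → ∀ s ∈ Δ, g • s ∈ Δ) {y : β} (hy : y ∈ Δ) :
    Nat.card ↥(MulAction.stabilizer M24 X) =
      Δ.ncard * Nat.card ↥(MulAction.stabilizer M24 X ⊓ MulAction.stabilizer M24 y) := by
  rw [card_eq_orbit_mul (MulAction.stabilizer M24 X) y, orbit_stab X Δ htr hinv hy]

theorem card_stab_o {o : Finset GolayPt} (ho : o ∈ octads) : Nat.card ↥(MulAction.stabilizer M24 o) = 322560 := by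
  rw [card_stab, card_stab_octad ho]

theorem std_o' {o : Finset GolayPt} (ho : o ∈ octads) : ∃ h ∈ M24, h • o = O0 := std_o ho

/-- octads meeting `o` in `k` points -/
def DD (o : Finset GolayPt) (k : ℕ) : Set (Finset GolayPt) := {s | mask s ∈ octL ∧ (o ∩ s).card = k}

theorem inv_DD (o : Finset GolayPt) (k : ℕ) : ∀ g ∈ M24, g • o = o → ∀ s ∈ DD o k, g • s ∈ DD o k := by
  rintro g hg ho s ⟨h1, h2⟩
  refine ⟨?_, ?_⟩
  · rw [← mem_octads_iff] at h1 ⊢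
    exact (smul_mem_octads_iff hg).2 h1
  · rw [← ho, ← Finset.smul_finset_inter, Finset.card_smul_finset]
    exact h2

theorem tr0 {o : Finset GolayPt} (ho : o ∈ octads) : ∀ s ∈ DD o 0, ∀ s' ∈ DD o 0, ∃ g ∈ M24, g • o = o ∧ g • s = s' :=
  fun _ hs _ hs' => trans_oo0 (std_o ho) hs.1 hs'.1 hs.2 hs'.2
theorem tr2 {o : Finset GolayPt} (ho : o ∈ octads) : ∀ s ∈ DD o 2, ∀ s' ∈ DD o 2, ∃ g ∈ M24, g • o = o ∧ g • s = s' :=
  fun _ hs _ hs' => trans_oo2 (std_o ho) hs.1 hs'.1 hs.2 hs'.2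
theorem tr4 {o : Finset GolayPt} (ho : o ∈ octads) : ∀ s ∈ DD o 4, ∀ s' ∈ DD o 4, ∃ g ∈ M24, g • o = o ∧ g • s = s' :=
  fun _ hs _ hs' => trans_oo4 (std_o ho) hs.1 hs'.1 hs.2 hs'.2

theorem card0 {o : Finset GolayPt} (ho : o ∈ octads) : (DD o 0).ncard = 30 := count_oo0 (std_o ho)
theorem card2 {o : Finset GolayPt} (ho : o ∈ octads) : (DD o 2).ncard = 448 := count_oo2 (std_o ho)
theorem card4 {o : Finset GolayPt} (ho : o ∈ octads) : (DD o 4).ncard = 280 := count_oo4 (std_o ho)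

end Cfsg.Agent.H28.Orb
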