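import Cfsg.Agent.H28_CoreC

set_option autoImplicit false
set_option linter.all false
open Cfsg
open scoped commutatorElement

namespace Cfsg.Agent.H28.Large

open Cfsg.Agent.H28.Xsp

variable {G : Type*} [Group G] [Finite G]

/-- singular subgroups. -/
structure Sing (U : Subgroup G) : Prop where
  sq : ∀ u ∈ U, u * u = 1
  pre : ∀ u ∈ U, u ≠ 1 → Pre (coreC u) u
  orth : ∀ u ∈ U, ∀ v ∈ U, u ≠ 1 → v ∈ coreC u

theorem sing_of {z : G} (hz : orderOf z = 2) (hE : Cfsg.IsExtraspecial 2 ↥(coreC z))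
    (hC : Subgroup.centralizer ((coreC z : Subgroup G) : Set G) ≤ coreC z)
    (U : Subgroup G) (hU2 : ∀ u ∈ U, u * u = 1)
    (hS : ∀ u ∈ U, u ≠ 1 → ∃ g : G, g * z * g⁻¹ = u)
    (hO : ∀ u ∈ U, ∀ v ∈ U, u ≠ 1 → v ≠ 1 → v ∈ coreC u) : Sing U where
  sq := hU2
  pre := by
    intro u hu hu1
    obtain ⟨g, rfl⟩ := hS u hu hu1
    have := (pre_coreC hz hE hC).conj g
    rwa [conj_coreC] at this
  orth := by
    intro u hu v hv hu1
    by_cases hv1 : v = 1
    · rw [hv1]; exact one_mem _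
    · exact hO u hu v hv hu1 hv1

namespace Sing

variable {U : Subgroup G}

theorem comm (S : Sing U) {u v : G} (hu : u ∈ U) (hv : v ∈ U) : u * v = v * u := by
  by_cases hu1 : u = 1
  · rw [hu1]; simp
  · exact (S.pre u hu hu1).zc v (S.orth u hu v hv hu1)

theorem le_core (S : Sing U) {u : G} (hu : u ∈ U) (hu1 : u ≠ 1) : U ≤ coreC u :=
  fun v hv => S.orth u hu v hv hu1

/-- the key transvection: `W ≤ U`, `v, v' ∈ U \ W` distinct. -/
theorem exists_trans (S : Sing U) {W : Subgroup G} (hW : W ≤ U) {v v' : G} (hv : v ∈ U) (hv' : v' ∈ U)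
    (hvW : v ∉ W) (hvW' : v' ∉ W) (hne : v ≠ v') :
    ∃ u ∈ U, u ≠ 1 ∧ ∃ h ∈ coreC u, (∀ w ∈ W, h * w = w * h) ∧ h * v * h⁻¹ = v' := by
  set u := v * v' with hu
  have huU : u ∈ U := U.mul_mem hv hv'
  have hu1 : u ≠ 1 := by
    intro h
    apply hne
    have := eq_inv_of_mul_eq_one_left h
    rw [this, inv_eq_of_mul_eq_one_left (S.sq v' hv')]
  have huv : u * v = v' := by
    rw [hu, mul_assoc, S.comm hv' hv, ← mul_assoc, S.sq v hv, one_mul]
  have hp := S.pre u huU hu1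
  refine ⟨u, huU, hu1, ?_⟩
  -- H = W ⊔ ⟨u⟩
  set H : Subgroup G := W ⊔ Subgroup.zpowers u with hH
  have hHQ : H ≤ coreC u := by
    apply sup_le
    · exact hW.trans (S.le_core huU hu1)
    · rw [Subgroup.zpowers_le]; exact hp.mem
  have huH : u ∈ H := Subgroup.mem_sup_right (Subgroup.mem_zpowers u)
  have hvH : v ∉ H := by
    intro h
    have hn : Subgroup.zpowers u ≤ Subgroup.normalizer (W : Set G) := by
      rw [Subgroup.zpowers_le]
      apply Subgroup.centralizer_le_normalizer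
      rw [Subgroup.mem_centralizer_iff]
      intro w hw
      exact S.comm (hW hw) huU
    rw [hH, sup_comm, H2.Card.mem_sup_iff hn] at h
    obtain ⟨a, ha, w, hw, haw⟩ := h
    rcases (mem_zpowers_of_sq hp.sq).mp ha with ha1 | ha1
    · rw [ha1, one_mul] at haw
      exact hvW (haw ▸ hw)
    · apply hvW'
      rw [← huv, ← haw, ha1, ← mul_assoc, hp.sq, one_mul]; exact hw
  have hd := hp.double_centralizer huH hHQ
  have hvQ := S.orth u huU v hv hu1
  have hex : ∃ h ∈ coreC u, (∀ w ∈ H, w * h = h * w) ∧ h * v ≠ v * h := by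
    by_contra hcon
    push Not at hcon
    apply hvH
    rw [← hd, Subgroup.mem_inf, Subgroup.mem_centralizer_iff]
    refine ⟨hvQ, ?_⟩
    intro h hh
    obtain ⟨hh1, hh2⟩ := Subgroup.mem_inf.mp hh
    exact hcon h hh1 (fun w hw => Subgroup.mem_centralizer_iff.mp hh2 w hw)
  obtain ⟨h, hhQ, hhW, hhv⟩ := hex
  refine ⟨h, hhQ, fun w hw => (hhW w (Subgroup.mem_sup_left hw)).symm, ?_⟩
  rw [hp.conj_eq_of_not_comm hhQ hvQ hhv, huv]

/-- `Q_u ∩ Q_v ≤ Q_{uv}`. -/
theorem inf_le (S : Sing U) {u v : G} (hu : u ∈ U) (hv : v ∈ U) (hu1 : u ≠ 1) (hv1 : v ≠ 1)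
    (huv : u ≠ v) {x : G} (hxu : x ∈ coreC u) (hxv : x ∈ coreC v) : x ∈ coreC (u * v) := by
  have hpu := S.pre u hu hu1
  obtain ⟨q, hq, hqv⟩ := hpu.exists_move (S.orth u hu v hv hu1) hv1 huv.symm
  rw [← hqv, ← conj_coreC, mem_map_conj]
  -- E = Q_u ∩ Q_v normalized by Q_u
  have huE : u ∈ coreC u ⊓ coreC v := Subgroup.mem_inf.mpr ⟨hpu.mem, S.orth v hv u hu hv1⟩
  have hn := hpu.le_normalizer (R := coreC u ⊓ coreC v) inf_le_left huE
  have h1 := (Subgroup.mem_normalizer_iff.mp (hn (inv_mem hq)) x).mp (Subgroup.mem_inf.mpr ⟨hxu, hxv⟩)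
  rw [inv_inv] at h1
  exact (Subgroup.mem_inf.mp h1).2

theorem core_le_normalizer (S : Sing U) {u : G} (hu : u ∈ U) (hu1 : u ≠ 1) :
    coreC u ≤ Subgroup.normalizer (U : Set G) :=
  (S.pre u hu hu1).le_normalizer (S.le_core hu hu1) hu

end Sing

end Cfsg.Agent.H28.Large
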