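import Mathlib
import Cfsg.Agent.H28_Sxt
import Cfsg.Agent.H28_Cls2

set_option autoImplicit false

/-!
Numbers of octads, dodecads, sextets and trios fixed by an element.
-/

namespace Cfsg.Agent.H28.SxtFix

open Cfsg Cfsg.Agent.H7.Golay Cfsg.Agent.H7.Oct Cfsg.Agent.H7.M24 Cfsg.Agent.H28.Sxt Cfsg.Agent.H28.Cls
open scoped Pointwise

/-- counting by labels -/
theorem ncard_lab {α : Type*} (lab : ℕ → α) (L : List ℕ) (hnd : L.Nodup)
    (hinj : ∀ n ∈ L, ∀ n' ∈ L, lab n = lab n' → n = n') (X : Set α) (hX : ∀ x, x ∈ X ↔ ∃ n ∈ L, x = lab n)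
    (P : α → Prop) (p : ℕ → Bool) (hp : ∀ n ∈ L, (p n = true ↔ P (lab n))) :
    {x | x ∈ X ∧ P x}.ncard = (L.filter p).length := by
  classical
  have h1 : {x | x ∈ X ∧ P x} = lab '' (((L.filter p).toFinset : Finset ℕ) : Set ℕ) := by
    ext x
    simp only [Set.mem_setOf_eq, Set.mem_image, Finset.mem_coe, List.mem_toFinset, List.mem_filter]
    constructor
    · rintro ⟨hx, hPx⟩
      obtain ⟨n, hn, rfl⟩ := (hX x).1 hx
      exact ⟨n, ⟨hn, (hp n hn).2 hPx⟩, rfl⟩
    · rintro ⟨n, ⟨hn, hpn⟩, rfl⟩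
      exact ⟨(hX _).2 ⟨n, hn, rfl⟩, (hp n hn).1 hpn⟩
  rw [h1, Set.InjOn.ncard_image, Set.ncard_coe_finset, List.toFinset_card_of_nodup (hnd.filter _)]
  intro a ha b hb hab
  simp only [Finset.mem_coe, List.mem_toFinset, List.mem_filter] at ha hb
  exact hinj a ha.1 b hb.1 hab

/-- number of fixed members, transport to a conjugate -/
theorem fix_conj {α : Type*} [MulAction (Equiv.Perm GolayPt) α] (X : Set α)
    (hX : ∀ g ∈ M24, ∀ x, (g • x ∈ X ↔ x ∈ X)) {c g z : Equiv.Perm GolayPt} (hc : c ∈ M24) (h : c * g * c⁻¹ = z) :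
    {x | x ∈ X ∧ g • x = x}.ncard = {x | x ∈ X ∧ z • x = x}.ncard := by
  have h1 : {x | x ∈ X ∧ z • x = x} = (fun x => c • x) '' {x | x ∈ X ∧ g • x = x} := by
    ext y
    simp only [Set.mem_setOf_eq, Set.mem_image]
    constructor
    · rintro ⟨hy, hzy⟩
      refine ⟨c⁻¹ • y, ⟨(hX c⁻¹ (inv_mem hc) y).2 hy, ?_⟩, smul_inv_smul c y⟩
      rw [← h, mul_smul, mul_smul] at hzy
      rw [eq_inv_smul_iff]
      exact hzy
    · rintro ⟨x, ⟨hx, hgx⟩, rfl⟩
      refine ⟨(hX c hc x).2 hx, ?_⟩
      rw [← h, mul_smul, mul_smul, inv_smul_smul, hgx]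
  rw [h1, Set.ncard_image_of_injective]
  exact MulAction.injective c

theorem fix_octads {g : Equiv.Perm GolayPt} {l : List ℕ} (h : Rep g l) :
    {o : Finset GolayPt | o ∈ octads ∧ g • o = o}.ncard = (octL.filter fun m => Nat.beq (act l m) m).length := by
  apply ncard_lab ofMask octL octL_nodup
  · intro n hn n' hn' e
    exact (ofMask_inj (octL_lt hn) (octL_lt hn')).1 e
  · intro x; exact mem_octads_iff'
  · intro n hn
    rw [h.smul_ofMask, ofMask_inj (act_lt h) (octL_lt hn), Nat.beq_eq]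

theorem fix_dodecads {g : Equiv.Perm GolayPt} {l : List ℕ} (h : Rep g l) :
    {o : Finset GolayPt | o ∈ dodecads ∧ g • o = o}.ncard = (dodL.filter fun m => Nat.beq (act l m) m).length := by
  apply ncard_lab ofMask dodL dodL_nodup
  · intro n hn n' hn' e
    exact (ofMask_inj (dodL_lt hn) (dodL_lt hn')).1 e
  · intro x; exact mem_dodecads_iff'
  · intro n hn
    rw [h.smul_ofMask, ofMask_inj (act_lt h) (dodL_lt hn), Nat.beq_eq]

theorem fix_sextets {g : Equiv.Perm GolayPt} (hg : g ∈ M24) {l : List ℕ} (h : Rep g l) :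
    {S : Finset (Finset GolayPt) | S ∈ sextets ∧ g • S = S}.ncard =
      (sexL.filter fun m => Nat.beq (syn (act l m)) m).length := by
  apply ncard_lab sx sexL sexL_nodup
  · intro n hn n' hn' e
    exact sx_inj hn e
  · intro x; exact sextet_iff
  · intro n hn
    rw [smul_sx hg h hn, Nat.beq_eq]
    constructor
    · intro e; rw [e]
    · intro e; exact (sx_inj hn e.symm).symm

theorem fix_trios {g : Equiv.Perm GolayPt} (hg : g ∈ M24) {l : List ℕ} (h : Rep g l) :
    {T : Finset (Finset GolayPt) | T ∈ trios ∧ g • T = T}.ncard =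
      (trioL.filter fun m => Nat.beq (tact l m) m).length := by
  apply ncard_lab tr trioL trioL_nodup
  · intro n hn n' hn' e
    exact tr_inj hn hn' e
  · intro x; exact trio_iff
  · intro n hn
    obtain ⟨h1, h2⟩ := smul_tr hg h hn
    rw [h1, Nat.beq_eq]
    constructor
    · intro e; rw [e]
    · intro e; exact (tr_inj hn h2 e.symm).symm

theorem oA : (octL.filter fun m => Nat.beq (act lA m) m).length = 71 := by decide +kernel
theorem oB : (octL.filter fun m => Nat.beq (act lB m) m).length = 15 := by decide +kernel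
theorem oC : (octL.filter fun m => Nat.beq (act l3A m) m).length = 21 := by decide +kernel
theorem dC : (dodL.filter fun m => Nat.beq (act l3A m) m).length = 20 := by decide +kernel
theorem sA : (sexL.filter fun m => Nat.beq (syn (act lA m)) m).length = 91 := by decide +kernel
theorem sB : (sexL.filter fun m => Nat.beq (syn (act lB m)) m).length = 51 := by decide +kernel
theorem sC : (sexL.filter fun m => Nat.beq (syn (act l3A m)) m).length = 16 := by decide +kernel
theorem sD : (sexL.filter fun m => Nat.beq (syn (act l3B m)) m).length = 7 := by decide +kernel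
theorem tA : (trioL.filter fun m => Nat.beq (tact lA m) m).length = 99 := by decide +kernel
theorem tB : (trioL.filter fun m => Nat.beq (tact lB m) m).length = 75 := by decide +kernel
theorem tC : (trioL.filter fun m => Nat.beq (tact l3A m) m).length = 15 := by decide +kernel
theorem tD : (trioL.filter fun m => Nat.beq (tact l3B m) m).length = 15 := by decide +kernel

theorem inv_octads : ∀ g ∈ M24, ∀ x, (g • x ∈ octads ↔ x ∈ octads) := fun _ hg _ => smul_mem_octads_iff hg
theorem inv_dodecads : ∀ g ∈ M24, ∀ x, (g • x ∈ dodecads ↔ x ∈ dodecads) := fun _ hg _ => smul_mem_dodecads_iff hg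
theorem inv_sextets : ∀ g ∈ M24, ∀ x, (g • x ∈ sextets ↔ x ∈ sextets) := fun _ hg _ => smul_mem_sextets_iff hg
theorem inv_trios : ∀ g ∈ M24, ∀ x, (g • x ∈ trios ↔ x ∈ trios) := fun _ hg _ => smul_mem_trios_iff hg

end Cfsg.Agent.H28.SxtFix
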