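import Mathlib

set_option autoImplicit false

/-! Counting derangements in transitive permutation groups (Cameron-Cohen). -/

namespace Cfsg.Agent.H29.Derange

open MulAction

variable {G Ω : Type*} [Group G] [Finite G] [MulAction G Ω] [Fintype Ω]

/-- number of fixed points -/
noncomputable def fx (Ω : Type*) [Fintype Ω] [MulAction G Ω] (g : G) : ℕ := Nat.card (fixedBy Ω g)

theorem fx_le (g : G) : fx Ω g ≤ Fintype.card Ω := by
  unfold fx
  rw [← Nat.card_eq_fintype_card]
  exact Nat.card_le_card_of_injective (Subtype.val) Subtype.val_injective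

theorem fx_one : fx Ω (1 : G) = Fintype.card Ω := by
  unfold fx
  rw [← Nat.card_eq_fintype_card]
  have : fixedBy Ω (1 : G) = Set.univ := by ext; simp
  rw [this]; exact Nat.card_congr (Equiv.Set.univ Ω)

theorem fx_eq_zero_iff (g : G) : fx Ω g = 0 ↔ ∀ ω : Ω, g • ω ≠ ω := by
  unfold fx
  rw [Nat.card_eq_zero, or_iff_left (not_infinite_iff_finite.2 inferInstance)]
  constructor
  · intro h ω hω; exact h.false ⟨ω, hω⟩
  · intro h; exact ⟨fun x => h x.1 x.2⟩

theorem fx_prod (g : G) : fx (Ω × Ω) g = fx Ω g ^ 2 := by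
  unfold fx
  rw [sq, ← Nat.card_prod]
  apply Nat.card_congr
  refine ⟨fun x => (⟨x.1.1, congrArg Prod.fst x.2⟩, ⟨x.1.2, congrArg Prod.snd x.2⟩),
    fun x => ⟨(x.1.1, x.2.1), Prod.ext x.1.2 x.2.2⟩, fun x => rfl, fun x => rfl⟩

variable (G Ω) in
/-- rank -/
noncomputable def rk : ℕ := Nat.card (orbitRel.Quotient G (Ω × Ω))

theorem burnside [Fintype G] : ∑ g : G, fx Ω g = Nat.card (orbitRel.Quotient G Ω) * Nat.card G := by
  classical
  have h := sum_card_fixedBy_eq_card_orbits_mul_card_group G Ω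
  simp only [← Nat.card_eq_fintype_card] at h
  exact h

theorem sum_fx [Fintype G] (htr : IsPretransitive G Ω) (hn : 0 < Fintype.card Ω) :
    ∑ g : G, fx Ω g = Nat.card G := by
  rw [burnside]
  have : Nat.card (orbitRel.Quotient G Ω) = 1 := by
    have h1 : Subsingleton (orbitRel.Quotient G Ω) := by
      constructor
      intro a b
      induction a using Quotient.inductionOn' with | _ a => ?_
      induction b using Quotient.inductionOn' with | _ b => ?_
      apply Quotient.sound'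
      exact htr.exists_smul_eq b a
    have h2 : Nonempty (orbitRel.Quotient G Ω) := by
      obtain ⟨x⟩ := Fintype.card_pos_iff.1 hn
      exact ⟨Quotient.mk'' x⟩
    rw [Nat.card_eq_one_iff_unique]
    exact ⟨h1, h2⟩
  rw [this, one_mul]

theorem sum_fx_sq [Fintype G] : ∑ g : G, fx Ω g ^ 2 = rk G Ω * Nat.card G := by
  unfold rk
  rw [← burnside]
  exact Finset.sum_congr rfl fun g _ => (fx_prod g).symm

theorem two_le_rk (hn : 2 ≤ Fintype.card Ω) : 2 ≤ rk G Ω := by
  obtain ⟨a, b, hab⟩ := Fintype.exists_pair_of_one_lt_card hn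
  unfold rk
  have : (Quotient.mk'' (a, a) : orbitRel.Quotient G (Ω × Ω)) ≠ Quotient.mk'' (a, b) := by
    intro h
    have := Quotient.exact' h
    obtain ⟨g, hg⟩ := this
    have h1 : g • a = a := congrArg Prod.fst hg
    have h2 : g • b = a := congrArg Prod.snd hg
    apply hab
    have h3 : g • a = g • b := by rw [h1, h2]
    exact MulAction.injective g h3
  have hfin : Finite (orbitRel.Quotient G (Ω × Ω)) := inferInstance
  exact Finite.one_lt_card_iff_nontrivial.2 ⟨_, _, this⟩

/-- The main identity: the sum of `(f-1)(f-n)`. -/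
theorem main_identity [Fintype G] (htr : IsPretransitive G Ω) (hn : 0 < Fintype.card Ω) :
    ∑ g : G, ((fx Ω g : ℤ) - 1) * ((fx Ω g : ℤ) - Fintype.card Ω) = ((rk G Ω : ℤ) - 1) * Nat.card G := by
  have h1 : (∑ g : G, (fx Ω g : ℤ)) = Nat.card G := by exact_mod_cast sum_fx htr hn
  have h2 : (∑ g : G, (fx Ω g : ℤ) ^ 2) = rk G Ω * Nat.card G := by exact_mod_cast sum_fx_sq (G := G) (Ω := Ω)
  have h3 : (∑ _g : G, (1 : ℤ)) = Nat.card G := by simp [Nat.card_eq_fintype_card]
  calc ∑ g : G, ((fx Ω g : ℤ) - 1) * ((fx Ω g : ℤ) - Fintype.card Ω)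
      = ∑ g : G, ((fx Ω g : ℤ) ^ 2 - (Fintype.card Ω + 1) * (fx Ω g : ℤ) + Fintype.card Ω * 1) := by
        apply Finset.sum_congr rfl; intro g _; ring
    _ = (∑ g : G, (fx Ω g : ℤ) ^ 2) - (Fintype.card Ω + 1) * (∑ g : G, (fx Ω g : ℤ)) + Fintype.card Ω * ∑ _g : G, (1 : ℤ) := by
        rw [Finset.sum_add_distrib, Finset.sum_sub_distrib, ← Finset.mul_sum, ← Finset.mul_sum]
    _ = _ := by rw [h1, h2, h3]; ring

/-- Cameron-Cohen with exact defect: `n * #derangements = (r-1)|G| + Σ_{f ≥ 1} (f-1)(n-f)`. -/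
theorem derange_identity [Fintype G] (htr : IsPretransitive G Ω) (hn : 0 < Fintype.card Ω) :
    (Fintype.card Ω : ℤ) * Nat.card {g : G // ∀ ω : Ω, g • ω ≠ ω} =
      ((rk G Ω : ℤ) - 1) * Nat.card G +
      ∑ g : G, (if fx Ω g = 0 then 0 else ((fx Ω g : ℤ) - 1) * (Fintype.card Ω - (fx Ω g : ℤ))) := by
  classical
  have hm := main_identity (G := G) (Ω := Ω) htr hn
  have h1 : (Nat.card {g : G // ∀ ω : Ω, g • ω ≠ ω} : ℤ) = ∑ g : G, (if fx Ω g = 0 then 1 else 0) := by
    rw [Nat.card_eq_fintype_card, Fintype.card_subtype, Finset.card_filter]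
    push_cast
    apply Finset.sum_congr rfl
    intro g _
    simp only [fx_eq_zero_iff]
  rw [h1, ← hm, Finset.mul_sum, ← Finset.sum_add_distrib]
  apply Finset.sum_congr rfl
  intro g _
  by_cases h : fx Ω g = 0
  · simp [h]
  · simp only [h, if_false]; ring

end Cfsg.Agent.H29.Derange
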