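import Mathlib
import Cfsg.Prelude
import Cfsg.Agent.H2_Critical
import Cfsg.Agent.H2_Alperin
import Cfsg.Agent.H2_Fusion

/-! A critical subgroup relative to a group of automorphisms. -/

set_option autoImplicit false
set_option linter.unusedSectionVars false
set_option linter.style.haveILetI false

open Subgroup Cfsg
open scoped commutatorElement

namespace Cfsg.Agent.H2.Crit2

variable {P : Type*} [Group P] [Finite P] {p : ℕ} [hp : Fact p.Prime]

open Cfsg.Agent.H2.Critical

/-- as `fixes_of_power_hom` for a `p`-power exponent -/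
theorem fixes_of_power_hom' (hP : IsPGroup p P) {e : ℕ} (hpe : p ∣ e)
    (a : MulAut P) (ha : Nat.Coprime (orderOf a) p) (h : ∀ x : P, x ^ e = 1 → a x = x) (n : ℕ) :
    ∀ X : Subgroup P, Nat.card X ≤ n → (∀ x ∈ X, a x ∈ X) →
      (∀ x ∈ X, ∀ y ∈ X, (x * y) ^ e = x ^ e * y ^ e) → ∀ x ∈ X, a x = x := by
  induction n with
  | zero =>
    intro X hX
    exact absurd (Nat.card_pos (α := X)) (by omega)
  | succ n ih =>
    intro X hX hinv hpow x hx
    by_cases hbot : X = ⊥
    · rw [hbot, mem_bot] at hx; rw [hx, map_one]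
    let f : X →* P :=
      { toFun := fun x => (x : P) ^ e
        map_one' := by simp
        map_mul' := fun x y => hpow x x.2 y y.2 }
    have hle : f.range ≤ X := by
      rintro _ ⟨y, rfl⟩
      exact pow_mem y.2 e
    have hlt : f.range < X := by
      refine lt_of_le_of_ne hle fun heq => ?_
      -- f surjective onto X hence injective, but there is an element of order p
      have hdvd : p ∣ Nat.card X := by
        obtain ⟨m, hm⟩ := IsPGroup.iff_card.1 (hP.to_subgroup X)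
        rw [hm]
        apply dvd_pow_self
        rintro rfl
        rw [pow_zero] at hm
        exact hbot (card_eq_one.1 hm)
      obtain ⟨y, hy⟩ := exists_prime_orderOf_dvd_card' p hdvd
      have h1 : y ∈ f.ker := by
        rw [MonoidHom.mem_ker]
        have h0 : y ^ e = 1 := orderOf_dvd_iff_pow_eq_one.1 (by rw [hy]; exact hpe)
        exact congrArg Subtype.val h0
      have h2 : Nat.card f.ker * Nat.card f.range = Nat.card X := by
        rw [← index_ker, card_mul_index]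
      rw [heq] at h2
      have h3 : Nat.card f.ker = 1 := by
        have := Nat.card_pos (α := X)
        exact Nat.eq_of_mul_eq_mul_right this (by rw [h2, one_mul])
      rw [card_eq_one.1 h3, mem_bot] at h1
      rw [h1, orderOf_one] at hy
      exact hp.out.one_lt.ne hy
    have hcard : Nat.card f.range < Nat.card X := by
      exact Set.ncard_lt_ncard (s := (f.range : Set P)) (t := (X : Set P)) hlt (Set.toFinite _)
    have hfix : ∀ y ∈ f.range, a y = y := by
      apply ih f.range (by omega)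
      · rintro _ ⟨y, rfl⟩
        refine ⟨⟨a y, hinv y y.2⟩, ?_⟩
        change (a (y : P)) ^ e = a ((y : P) ^ e)
        rw [map_pow]
      · intro y hy z hz
        exact hpow y (hle hy) z (hle hz)
    apply fixed_of_coprime hP a ha
    apply h
    have h1 : (x⁻¹ * a x) ^ e = (x⁻¹) ^ e * (a x) ^ e := hpow _ (inv_mem hx) _ (hinv x hx)
    rw [h1, ← map_pow, hfix (x ^ e) ⟨⟨x, hx⟩, rfl⟩, inv_pow, inv_mul_cancel]

/-- critical subgroup of exponent `p` or `4` -/
theorem exists_crit_exp (hP : IsPGroup p P) : ∃ C : Subgroup P, C.Characteristic ∧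
    (∀ d ∈ C, d ^ p = 1 ∨ (p = 2 ∧ d ^ 4 = 1)) ∧
    (∀ c ∈ C, ∀ g : P, ⁅c, g⁆ ∈ centralizer (C : Set P)) ∧
    ∀ a : MulAut P, (orderOf a).Coprime p → (∀ c ∈ C, a c = c) → a = 1 := by
  classical
  obtain ⟨H, hHc, hH1, hH2, hH3⟩ := exists_critical hP
  haveI := hHc
  obtain ⟨e, hpe, hch, hee⟩ : ∃ e : ℕ, p ∣ e ∧ p ∣ e.choose 2 ∧ (e = p ∨ (p = 2 ∧ e = 4)) := by
    by_cases hp2 : p = 2
    · exact ⟨4, by rw [hp2]; norm_num, by rw [hp2]; decide, Or.inr ⟨hp2, rfl⟩⟩
    · have := H2.Alperin.dvd_choose_of_odd (n := 1) hp.out hp2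
      exact ⟨p, dvd_rfl, by simpa using this, Or.inl rfl⟩
  have hc : ∀ a ∈ H, ∀ b : P, ∀ c ∈ H, Commute c ⁅a, b⁆ := by
    intro a ha b c hc
    exact (mem_centralizer_iff.1 (hH2 (commutator_mem_commutator ha (mem_top b))).2 c hc)
  have hpZ : ∀ x ∈ H, ∀ y ∈ H, Commute y (x ^ p) := by
    intro x hx y hy
    have h1 : (⟨x, hx⟩ : H) ^ p ∈ frattini H := H2.PGroup.pow_mem_frattini (hP.to_subgroup H) _
    exact mem_centralizer_iff.1 (hH1 ⟨_, h1, rfl⟩) y hy
  have hpow : ∀ x ∈ H, ∀ y ∈ H, (x * y) ^ e = x ^ e * y ^ e := by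
    intro x hx y hy
    rw [H2.Alperin.mul_pow_local (hc y hy x x hx) (hc y hy x y hy)]
    obtain ⟨k, hk⟩ := hch
    have h5 : ⁅y, x⁆ ^ p = 1 := by
      rw [← H2.Alperin.comm_pow_local (hc y hy x y hy) (hc y hy x x hx),
        commutatorElement_eq_one_iff_mul_comm]
      exact hpZ x hx y hy
    rw [hk, pow_mul, h5, one_pow, mul_one]
  let C : Subgroup P :=
    { carrier := {x | x ∈ H ∧ x ^ e = 1}
      one_mem' := ⟨one_mem _, one_pow _⟩
      inv_mem' := by
        rintro x ⟨h1, h2⟩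
        exact ⟨inv_mem h1, by rw [inv_pow, h2, inv_one]⟩
      mul_mem' := by
        rintro x y ⟨h1, h2⟩ ⟨h3, h4⟩
        exact ⟨mul_mem h1 h3, by rw [hpow x h1 y h3, h2, h4, one_mul]⟩ }
  have hmem : ∀ x, x ∈ C ↔ x ∈ H ∧ x ^ e = 1 := fun x => Iff.rfl
  have hCc : C.Characteristic := by
    rw [characteristic_iff_map_le]
    rintro φ _ ⟨x, ⟨h1, h2⟩, rfl⟩
    refine ⟨?_, ?_⟩
    · exact (characteristic_iff_map_le.1 hHc) φ ⟨x, h1, rfl⟩
    · show φ x ^ e = 1
      rw [← map_pow, h2, map_one]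
  refine ⟨C, hCc, ?_, ?_, ?_⟩
  · rintro d ⟨_, hd⟩
    rcases hee with h | ⟨h, h'⟩
    · left; rw [← h]; exact hd
    · right; exact ⟨h, by rw [← h']; exact hd⟩
  · rintro c ⟨hcH, _⟩ g
    rw [mem_centralizer_iff]
    rintro x ⟨hx, _⟩
    exact hc c hcH g x hx
  · intro a ha hfix
    refine aut_trivial_of_critical hP H inferInstance hH3 a ha ?_
    have hinv : ∀ x ∈ H, a x ∈ H := fun x hx => (characteristic_iff_map_le.1 hHc) a ⟨x, hx, rfl⟩
    -- restrict to `H`
    let a' : MulAut H := (a.subgroupMap H).trans (MulEquiv.subgroupCongr (characteristic_iff_map_eq.1 hHc a))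
    have ha'v : ∀ x : H, ((a' x : H) : P) = a x := fun x => rfl
    have hpow' : ∀ (n : ℕ) (x : H), (((a' ^ n) x : H) : P) = (a ^ n) x := by
      intro n
      induction n with
      | zero => intro x; rfl
      | succ n ih => intro x; rw [pow_succ', pow_succ', MulAut.mul_apply, MulAut.mul_apply, ha'v, ih]
    have ha'c : Nat.Coprime (orderOf a') p := by
      refine Nat.Coprime.coprime_dvd_left ?_ ha
      apply orderOf_dvd_of_pow_eq_one
      ext x
      rw [hpow', pow_orderOf_eq_one]; rfl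
    have key := fixes_of_power_hom' (hP.to_subgroup H) hpe a' ha'c (by
      intro x hx
      exact Subtype.ext (hfix x ⟨x.2, congrArg Subtype.val hx⟩)) (Nat.card H) ⊤ (by rw [card_top])
      (fun _ _ => mem_top _) (by
        intro x _ y _
        exact Subtype.ext (hpow x x.2 y y.2))
    intro x hx
    exact congrArg Subtype.val (key ⟨x, hx⟩ (mem_top _))

theorem main (hP : IsPGroup p P) (G : Subgroup (MulAut P)) (hG : Cfsg.Inn P ≤ G) :
    ∃ D : Subgroup P,
      (∀ α ∈ G, D.map α.toMonoidHom = D) ∧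
      D ≤ Subgroup.closure {y : P | ∃ α ∈ Cfsg.pResidual p ↥G, ∃ x : P, y = x⁻¹ * (α : MulAut P) x} ∧
      (∀ d ∈ D, d ^ p = 1 ∨ (p = 2 ∧ d ^ 4 = 1)) ∧
      ⁅D, (⊤ : Subgroup P)⁆ ≤ D ⊓ Subgroup.centralizer (D : Set P) ∧
      (∀ α ∈ G, (orderOf α).Coprime p → (∀ d ∈ D, α d = d) → α = 1) ∧
      ∀ A : Subgroup P, A ≤ D → IsMulCommutative ↥A →
        (∀ B : Subgroup P, A ≤ B → B ≤ D → IsMulCommutative ↥B → B = A) →
        A.Normal ∧ ∀ α ∈ G, (∀ a ∈ A, α a = a) → ∃ k : ℕ, orderOf α = p ^ k := by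
  classical
  obtain ⟨C, hCc, hC1, hC2, hC3⟩ := exists_crit_exp hP
  set S : Set P := {y : P | ∃ α ∈ Cfsg.pResidual p ↥G, ∃ x ∈ C, y = x⁻¹ * (α : MulAut P) x} with hS
  set D := closure S with hD
  haveI hRn : (pResidual p ↥G).Normal := Cfsg.Agent.H2.Fusion.pResidual_normal p
  have hCinv : ∀ (α : MulAut P), ∀ x ∈ C, α x ∈ C := fun α x hx => (characteristic_iff_map_le.1 hCc) α ⟨x, hx, rfl⟩
  have hDC : D ≤ C := by
    rw [hD, closure_le]
    rintro _ ⟨α, _, x, hx, rfl⟩
    exact mul_mem (inv_mem hx) (hCinv _ x hx)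
  have hDle : ∀ β ∈ G, D.map β.toMonoidHom ≤ D := by
    intro β hβ
    rw [map_le_iff_le_comap, hD, closure_le]
    rintro _ ⟨α, hα, x, hx, rfl⟩
    apply Subgroup.subset_closure
    let b : ↥G := ⟨β, hβ⟩
    refine ⟨b * α * b⁻¹, hRn.conj_mem α hα b, β x, hCinv β x hx, ?_⟩
    have h1 : ((b * α * b⁻¹ : ↥G) : MulAut P) (β x) = β ((α : MulAut P) x) := by
      show (β * (α : MulAut P) * β⁻¹) (β x) = β ((α : MulAut P) x)
      rw [MulAut.mul_apply, MulAut.mul_apply, MulAut.inv_apply_self]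
    rw [h1]
    show β (x⁻¹ * (α : MulAut P) x) = (β x)⁻¹ * β ((α : MulAut P) x)
    rw [map_mul, map_inv]
  have hDinv : ∀ β ∈ G, D.map β.toMonoidHom = D := by
    intro β hβ
    apply le_antisymm (hDle β hβ)
    intro x hx
    refine ⟨β⁻¹ x, hDle β⁻¹ (inv_mem hβ) ⟨x, hx, rfl⟩, ?_⟩
    show β (β⁻¹ x) = x
    simp
  have hDn : D.Normal := by
    refine ⟨fun n hn g => ?_⟩
    exact hDle (MulAut.conj g) (hG ⟨g, rfl⟩) ⟨n, hn, rfl⟩
  have hDP : ⁅D, (⊤ : Subgroup P)⁆ ≤ D ⊓ Subgroup.centralizer (D : Set P) := by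
    refine le_inf (commutator_le_left _ _) ?_
    rw [commutator_le]
    intro d hd g _
    exact centralizer_le hDC (hC2 d (hDC hd) g)
  have hD4 : ∀ α ∈ G, (orderOf α).Coprime p → (∀ d ∈ D, α d = d) → α = 1 := by
    intro α hα hαp hfix
    apply hC3 α hαp
    intro c hc
    apply fixed_of_coprime hP α hαp
    apply hfix
    apply Subgroup.subset_closure
    refine ⟨⟨α, hα⟩, Cfsg.Agent.H2.Fusion.mem_pResidual ?_, c, hc, rfl⟩
    rwa [← Subgroup.orderOf_coe]
  refine ⟨D, hDinv, ?_, fun d hd => hC1 d (hDC hd), hDP, hD4, ?_⟩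
  · rw [hD]
    apply Subgroup.closure_mono
    rintro _ ⟨α, hα, x, _, rfl⟩
    exact ⟨α, hα, x, rfl⟩
  · intro A hAD hA hmax
    have hAab : ∀ x ∈ A, ∀ y ∈ A, x * y = y * x := fun x hx y hy =>
      congrArg Subtype.val (hA.is_comm.comm (⟨x, hx⟩ : A) ⟨y, hy⟩)
    -- `C_D(A) ≤ A`
    have hCA : ∀ x ∈ D, (∀ a ∈ A, a * x = x * a) → x ∈ A := by
      intro x hx hxa
      have h1 : IsMulCommutative ↥(A ⊔ zpowers x) := by
        rw [isMulCommutative_iff_le_centralizer]
        refine sup_le ?_ ?_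
        · rw [le_centralizer_iff]
          refine sup_le ?_ ?_
          · intro a ha; rw [mem_centralizer_iff]; intro b hb; exact hAab b hb a ha
          · rw [zpowers_le, mem_centralizer_iff]; intro b hb; exact hxa b hb
        · rw [zpowers_le, mem_centralizer_iff]
          intro y hy
          have h2 : A ⊔ zpowers x ≤ centralizer ({x} : Set P) := by
            refine sup_le ?_ ?_
            · intro a ha; rw [mem_centralizer_singleton_iff]; exact hxa a ha
            · rw [zpowers_le, mem_centralizer_singleton_iff]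
          exact mem_centralizer_singleton_iff.1 (h2 hy)
      have h2 := hmax (A ⊔ zpowers x) le_sup_left (sup_le hAD (by rwa [zpowers_le])) h1
      rw [← h2]
      exact (le_sup_right : zpowers x ≤ _) (mem_zpowers x)
    have hcomm : ∀ d ∈ D, ∀ g : P, ⁅d, g⁆ ∈ A := by
      intro d hd g
      have h1 := hDP (commutator_mem_commutator hd (mem_top g))
      exact hCA _ h1.1 (fun a ha => (mem_centralizer_iff.1 h1.2 a (hAD ha)))
    have hAn : A.Normal := by
      refine ⟨fun n hn g => ?_⟩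
      have h1 : g * n * g⁻¹ = (⁅n, g⁆)⁻¹ * n := by rw [commutatorElement_def]; group
      rw [h1]
      exact mul_mem (inv_mem (hcomm n (hAD hn) g)) hn
    refine ⟨hAn, fun α hα hfix => ?_⟩
    obtain ⟨k, m, hm, hkm⟩ := Nat.exists_eq_pow_mul_and_not_dvd (orderOf_pos α).ne' p hp.out.ne_one
    have h1 : α ^ p ^ k = 1 := by
      have ho : orderOf (α ^ p ^ k) = m := by
        rw [orderOf_pow, hkm, Nat.gcd_eq_right (dvd_mul_right _ _), Nat.mul_div_cancel_left _ (pow_pos hp.out.pos _)]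
      have hcop : (orderOf (α ^ p ^ k)).Coprime p := by
        rw [ho]; exact ((Nat.Prime.coprime_iff_not_dvd hp.out).2 hm).symm
      have hfix' : ∀ a ∈ A, (α ^ p ^ k) a = a := by
        intro a ha
        generalize p ^ k = n
        induction n with
        | zero => simp
        | succ n ih => rw [pow_succ, MulAut.mul_apply, hfix a ha, ih]
      apply hD4 _ (pow_mem hα _) hcop
      intro d hd
      have hβG : α ^ p ^ k ∈ G := pow_mem hα _
      generalize α ^ p ^ k = β at hcop hfix' hβG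
      apply fixed_of_coprime hP β hcop
      apply hfix'
      have hβd : β d ∈ D := hDle β hβG ⟨d, hd, rfl⟩
      refine hCA _ (mul_mem (inv_mem hd) hβd) (fun a ha => ?_)
      have h2 : β (d * a * d⁻¹) = d * a * d⁻¹ := hfix' _ (hAn.conj_mem a ha d)
      rw [map_mul, map_mul, map_inv, hfix' a ha] at h2
      calc a * (d⁻¹ * β d) = d⁻¹ * (d * a * d⁻¹) * β d := by group
        _ = d⁻¹ * (β d * a * (β d)⁻¹) * β d := by rw [h2]
        _ = d⁻¹ * β d * a := by group
    obtain ⟨j, _, hj⟩ := (Nat.dvd_prime_pow hp.out).1 (orderOf_dvd_of_pow_eq_one h1)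
    exact ⟨j, hj⟩

end Cfsg.Agent.H2.Crit2
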