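import Mathlib
import Cfsg.Prelude
import Cfsg.Agent.H13_Syl
import Cfsg.Agent.H13_NPC
import Cfsg.Agent.H11_Cores
import Cfsg.Agent.H2_Basic

/-! `O_{p',p}` and centralizers of normal `p`-subgroups. -/

set_option autoImplicit false
set_option linter.unusedSectionVars false
set_option linter.style.haveILetI false

open Subgroup Cfsg
open scoped commutatorElement

universe u

namespace Cfsg.Agent.H2.Ess

open Cfsg.Agent.H13.Syl

variable {X : Type u} [Group X] [Finite X] {p : ℕ} [hp : Fact p.Prime]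

theorem relIndex_le_one_of {A B N : Subgroup X} (h1 : ¬ p ∣ A.relIndex N) (h2 : ∃ k, B.relIndex N = p ^ k) (hle : A ⊔ B ≤ N) : A ⊔ B = N := by
  apply le_antisymm hle
  rw [← relIndex_eq_one]
  obtain ⟨k, hk⟩ := h2
  have h3 : (A ⊔ B).relIndex N ∣ p ^ k := by rw [← hk]; exact relIndex_dvd_of_le_left N le_sup_right
  have h4 : (A ⊔ B).relIndex N ∣ A.relIndex N := relIndex_dvd_of_le_left N le_sup_left
  obtain ⟨j, hj, hj'⟩ := (Nat.dvd_prime_pow hp.out).1 h3
  rcases j with _ | j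
  · rw [hj', pow_zero]
  · exfalso
    apply h1
    refine (?_ : p ∣ _).trans h4
    rw [hj']; exact dvd_pow_self p (by omega)

theorem eq_pp {H C T : Subgroup X} (hH : H.Normal) (hHp : IsPGroup p H) (hCn : C.Normal)
    (hC : ∀ x, x ∈ C ↔ ∀ h ∈ H, h * x = x * h) (hT : IsSylIn p T ⊤) (hTC : T ⊓ C ≤ H) :
    (pCore p (X ⧸ C)).comap (QuotientGroup.mk' C) = pPrimePCore p X := by
  set O := pPrimeCore p X with hO
  haveI hOn : O.Normal := by rw [hO]; infer_instance
  have hOc : (Nat.card O).Coprime p := Cfsg.Agent.H11.Cores.pPrimeCore_coprime p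
  set N₁ := (pCore p (X ⧸ C)).comap (QuotientGroup.mk' C) with hN₁
  haveI hN₁n : N₁.Normal := by rw [hN₁]; infer_instance
  have hCN₁ : C ≤ N₁ := by
    intro x hx
    rw [hN₁, mem_comap]
    have : QuotientGroup.mk' C x = 1 := (QuotientGroup.eq_one_iff x).2 hx
    rw [this]; exact one_mem _
  -- `O ≤ C`
  have hOC : O ≤ C := by
    have hdisj : Disjoint H O := by
      apply disjoint_of_coprime_natCard
      obtain ⟨k, hk⟩ := IsPGroup.iff_card.1 hHp
      rw [hk]
      exact (hOc.pow_right k).symm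
    intro x hx
    rw [hC]
    intro h hh
    have h2 := Subgroup.commutator_eq_bot_of_disjoint hdisj
    have h3 : ⁅h, x⁆ = 1 := by rw [← mem_bot, ← h2]; exact commutator_mem_commutator hh hx
    exact commutatorElement_eq_one_iff_mul_comm.1 h3
  -- `C` has a normal complement
  have hTCs : IsSylIn p (T ⊓ C) C := hT.inf_of_le_normalizer le_top (by rw [normalizer_eq_top])
  obtain ⟨S, hS⟩ := hTCs.exists_sylow
  have hnpc : HasNormalPComplement p C := by
    apply Cfsg.Agent.H13.NPC.npc_of_central_sylow (isSylIn_sylow_top S)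
    intro x hx
    rw [mem_center_iff]
    intro y
    apply Subtype.ext
    rw [hS] at hx
    exact (((hC y).1 y.2) x (hTC (mem_subgroupOf.1 hx))).symm
  obtain ⟨N₀, hN₀, hN₀c, k, hk⟩ := Cfsg.Agent.H2.Basic.npc_iff.1 hnpc
  have hN₀O : N₀.map C.subtype ≤ O := by
    have h1 : N₀ ≤ pPrimeCore p C := Cfsg.Agent.H11.Cores.le_pPrimeCore p ((Nat.Prime.coprime_iff_not_dvd hp.out).2 hN₀c).symm
    refine (map_mono h1).trans ?_
    rw [Cfsg.Agent.H11.Cores.map_pPrimeCore_of_isSubnormal p hCn.isSubnormal]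
    exact inf_le_left
  have hOCk : ∃ k, O.relIndex C = p ^ k := by
    have h1 : O.relIndex C ∣ p ^ k := by
      rw [← hk]
      apply Subgroup.index_dvd_of_le
      intro x hx
      exact mem_subgroupOf.2 (hN₀O ⟨x, hx, rfl⟩)
    obtain ⟨j, hj, hj'⟩ := (Nat.dvd_prime_pow hp.out).1 h1
    exact ⟨j, hj'⟩
  have hcardmap : ∀ A B : Subgroup X, ∀ [hA : A.Normal], Nat.card (B.map (QuotientGroup.mk' A)) = A.relIndex B := by
    intro A B hA
    rw [← relIndex_ker, QuotientGroup.ker_mk']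
  have hCNk : ∃ k, C.relIndex N₁ = p ^ k := by
    have h1 : N₁.map (QuotientGroup.mk' C) = pCore p (X ⧸ C) := by
      rw [hN₁, map_comap_eq_self_of_surjective (QuotientGroup.mk'_surjective C)]
    rw [← hcardmap, h1]
    exact IsPGroup.iff_card.1 (Cfsg.Agent.H1.Nilp.pCore_isPGroup p)
  apply le_antisymm
  · rw [pPrimePCore, ← map_le_iff_le_comap]
    haveI : (N₁.map (QuotientGroup.mk' O)).Normal := hN₁n.map _ (QuotientGroup.mk'_surjective O)
    apply Cfsg.Agent.H1.Nilp.le_pCore this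
    rw [IsPGroup.iff_card, hcardmap, ← relIndex_mul_relIndex O C N₁ hOC hCN₁]
    obtain ⟨a, ha⟩ := hOCk
    obtain ⟨b, hb⟩ := hCNk
    exact ⟨a + b, by rw [ha, hb, pow_add]⟩
  · rw [hN₁, ← map_le_iff_le_comap]
    haveI hKn : (pPrimePCore p X).Normal := by rw [pPrimePCore]; infer_instance
    haveI : ((pPrimePCore p X).map (QuotientGroup.mk' C)).Normal := hKn.map _ (QuotientGroup.mk'_surjective C)
    apply Cfsg.Agent.H1.Nilp.le_pCore this
    rw [IsPGroup.iff_card, hcardmap]
    have h1 : C.relIndex (pPrimePCore p X) ∣ O.relIndex (pPrimePCore p X) := relIndex_dvd_of_le_left _ hOC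
    have h2 : ∃ k, O.relIndex (pPrimePCore p X) = p ^ k := by
      have h3 : (pPrimePCore p X).map (QuotientGroup.mk' O) = pCore p (X ⧸ O) := by
        rw [pPrimePCore, map_comap_eq_self_of_surjective (QuotientGroup.mk'_surjective O)]
      rw [← hcardmap, h3]
      exact IsPGroup.iff_card.1 (Cfsg.Agent.H1.Nilp.pCore_isPGroup p)
    obtain ⟨k, hk⟩ := h2
    rw [hk] at h1
    obtain ⟨j, hj, hj'⟩ := (Nat.dvd_prime_pow hp.out).1 h1
    exact ⟨j, hj'⟩

theorem core {H C T : Subgroup X} (hH : H.Normal) (hHp : IsPGroup p H) (hCn : C.Normal)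
    (hC : ∀ x, x ∈ C ↔ ∀ h ∈ H, h * x = x * h) (hT : IsSylIn p T ⊤) :
    (H ≤ (pCore p (X ⧸ C)).comap (QuotientGroup.mk' C) ∧ ¬ p ∣ H.relIndex ((pCore p (X ⧸ C)).comap (QuotientGroup.mk' C))) ↔
      (T ⊓ C ≤ H ∧ pPrimePCore p X = H ⊔ C) := by
  set N₁ := (pCore p (X ⧸ C)).comap (QuotientGroup.mk' C) with hN₁
  haveI hN₁n : N₁.Normal := by rw [hN₁]; infer_instance
  have hCN₁ : C ≤ N₁ := by
    intro x hx
    rw [hN₁, mem_comap]
    have : QuotientGroup.mk' C x = 1 := (QuotientGroup.eq_one_iff x).2 hx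
    rw [this]; exact one_mem _
  have hHT : H ≤ T := by
    obtain ⟨x, hx, h1⟩ := hT.exists_conj_le hHp le_top
    rwa [cj_eq_of_normal] at h1
  have hTN : IsSylIn p (T ⊓ N₁) N₁ := hT.inf_of_le_normalizer le_top (by rw [normalizer_eq_top])
  constructor
  · rintro ⟨h1, h2⟩
    have hHs : IsSylIn p H N₁ := ⟨h1, hHp, h2⟩
    have h3 : T ⊓ N₁ = H := hHs.eq_of_le hTN.2.1 hTN.1 (le_inf hHT h1)
    have h4 : T ⊓ C ≤ H := by rw [← h3]; exact inf_le_inf_left _ hCN₁
    refine ⟨h4, ?_⟩
    rw [← eq_pp hH hHp hCn hC hT h4, ← hN₁]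
    symm
    apply relIndex_le_one_of h2 _ (sup_le h1 hCN₁)
    have h5 : N₁.map (QuotientGroup.mk' C) = pCore p (X ⧸ C) := by
      rw [hN₁, map_comap_eq_self_of_surjective (QuotientGroup.mk'_surjective C)]
    have h6 : Nat.card (N₁.map (QuotientGroup.mk' C)) = C.relIndex N₁ := by
      rw [← relIndex_ker, QuotientGroup.ker_mk']
    rw [← h6, h5]
    exact IsPGroup.iff_card.1 (Cfsg.Agent.H1.Nilp.pCore_isPGroup p)
  · rintro ⟨h1, h2⟩
    have h3 : N₁ = H ⊔ C := by rw [← h2]; exact eq_pp hH hHp hCn hC hT h1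
    have h4 : T ⊓ N₁ = H := by
      apply le_antisymm
      · rw [h3]
        rintro x hx
        obtain ⟨hx1, hx2⟩ := mem_inf.1 hx
        obtain ⟨h, hh, c, hc, rfl⟩ := mem_sup_of_normal_right.1 hx2
        exact mul_mem hh (h1 (mem_inf.2 ⟨(mul_mem_cancel_left (hHT hh)).1 hx1, hc⟩))
      · exact le_inf hHT (by rw [h3]; exact le_sup_left)
    rw [h4] at hTN
    exact ⟨hTN.1, hTN.2.2⟩

theorem main {G : Type u} [Group G] [Finite G] {p : ℕ} [hp : Fact p.Prime]
    (P : Sylow p G) (H : Subgroup G) (hHP : H ≤ (P : Subgroup G))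
    (hSyl : ¬ p ∣ ((P : Subgroup G) ⊓ Subgroup.normalizer (H : Set G)).relIndex (Subgroup.normalizer (H : Set G)))
    [hC : ((Subgroup.centralizer (H : Set G)).subgroupOf (Subgroup.normalizer (H : Set G))).Normal] :
    (H ≤ ((Cfsg.pCore p (↥(Subgroup.normalizer (H : Set G)) ⧸
              (Subgroup.centralizer (H : Set G)).subgroupOf (Subgroup.normalizer (H : Set G)))).comap
            (QuotientGroup.mk' _)).map (Subgroup.normalizer (H : Set G)).subtype ∧
      ¬ p ∣ H.relIndex (((Cfsg.pCore p (↥(Subgroup.normalizer (H : Set G)) ⧸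
              (Subgroup.centralizer (H : Set G)).subgroupOf (Subgroup.normalizer (H : Set G)))).comap
            (QuotientGroup.mk' _)).map (Subgroup.normalizer (H : Set G)).subtype)) ↔
    ((P : Subgroup G) ⊓ Subgroup.centralizer (H : Set G) ≤ H ∧
      (Cfsg.pPrimePCore p ↥(Subgroup.normalizer (H : Set G))).map (Subgroup.normalizer (H : Set G)).subtype =
        H ⊔ Subgroup.centralizer (H : Set G)) := by
  set N := normalizer (H : Set G) with hN
  set C := centralizer (H : Set G) with hCdef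
  have hHN : H ≤ N := le_normalizer
  have hCN : C ≤ N := Subgroup.centralizer_le_normalizer _
  set H' := H.subgroupOf N with hH'
  set C' := C.subgroupOf N with hC'
  set T := ((P : Subgroup G) ⊓ N).subgroupOf N with hT
  have hHm : H'.map N.subtype = H := map_subgroupOf_eq_of_le hHN
  have hCm : C'.map N.subtype = C := map_subgroupOf_eq_of_le hCN
  have hTm : T.map N.subtype = (P : Subgroup G) ⊓ N := map_subgroupOf_eq_of_le inf_le_right
  haveI hH'n : H'.Normal := normal_in_normalizer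
  have hH'p : IsPGroup p H' := (P.isPGroup'.to_le hHP).comap_subtype
  have hTs : IsSylIn p T ⊤ := by
    refine ⟨le_top, (P.isPGroup'.to_le inf_le_left).comap_subtype, ?_⟩
    rw [relIndex_top_right]
    exact hSyl
  have hcore := core (p := p) (H := H') (C := C') (T := T) hH'n hH'p hC (by
    intro x
    rw [hC', mem_subgroupOf, hCdef, mem_centralizer_iff]
    constructor
    · intro h y hy
      exact Subtype.ext (h y (mem_subgroupOf.1 hy))
    · intro h y hy
      exact congrArg Subtype.val (h ⟨y, hHN hy⟩ (mem_subgroupOf.2 hy))) hTs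
  set N₁ := (pCore p (N ⧸ C')).comap (QuotientGroup.mk' C') with hN₁
  have e1 : H ≤ N₁.map N.subtype ↔ H' ≤ N₁ := by
    nth_rewrite 1 [← hHm]
    exact map_le_map_iff_of_injective N.subtype_injective
  have e2 : H.relIndex (N₁.map N.subtype) = H'.relIndex N₁ := by
    nth_rewrite 1 [← hHm]
    exact relIndex_map_map_of_injective _ _ N.subtype_injective
  have e3 : (P : Subgroup G) ⊓ C ≤ H ↔ T ⊓ C' ≤ H' := by
    constructor
    · intro h x hx
      obtain ⟨h1, h2⟩ := mem_inf.1 hx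
      exact mem_subgroupOf.2 (h (mem_inf.2 ⟨(mem_inf.1 (mem_subgroupOf.1 h1)).1, mem_subgroupOf.1 h2⟩))
    · intro h x hx
      obtain ⟨h1, h2⟩ := mem_inf.1 hx
      have h3 : (⟨x, hCN h2⟩ : N) ∈ T ⊓ C' := mem_inf.2 ⟨mem_subgroupOf.2 (mem_inf.2 ⟨h1, hCN h2⟩), mem_subgroupOf.2 h2⟩
      exact mem_subgroupOf.1 (h h3)
  have e4 : (pPrimePCore p N).map N.subtype = H ⊔ C ↔ pPrimePCore p N = H' ⊔ C' := by
    rw [← hHm, ← hCm, ← Subgroup.map_sup]
    exact (map_injective N.subtype_injective).eq_iff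
  rw [e1, e2, e3, e4]
  exact hcore

end Cfsg.Agent.H2.Ess
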