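import Mathlib
import Cfsg.Prelude
import Cfsg.Agent.H2_ChiefR2
import Cfsg.Agent.H2_Fusion3
import Cfsg.Agent.H13_Syl
import Cfsg.Agent.H12_BG1
import Cfsg.Agent.H11_FStar
import Cfsg.Agent.H11_Bal3
import Cfsg.Agent.H11_KSections
import Cfsg.Agent.H1_Subn2

/-! Isolated elements of order `p` in groups of `p`-rank two. -/

set_option autoImplicit false
set_option linter.unusedSectionVars false
set_option linter.style.haveILetI false

open Subgroup Cfsg
open scoped commutatorElement

universe u

namespace Cfsg.Agent.H2.Iso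

open Cfsg.Agent.H13.Syl Cfsg.Agent.H11.Components

variable {G : Type u} [Group G] [Finite G] {p : ℕ} [hp : Fact p.Prime]

theorem comm_of_pgroup {x : G} (hiso : IsIsolated x) {T : Subgroup G} (hT : IsPGroup p T) (hx : x ∈ T) :
    ∀ s ∈ T, x * s = s * x := by
  set C := T ⊓ centralizer ({x} : Set G) with hC
  have hxC : x ∈ C := mem_inf.2 ⟨hx, mem_centralizer_singleton_iff.2 rfl⟩
  have hCT : C = T := by
    by_contra hne
    have hlt : C < T := lt_of_le_of_ne inf_le_left hne
    obtain ⟨n, hn, hnC⟩ := SetLike.exists_of_lt (lt_normalizer_of_lt hT hlt)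
    obtain ⟨hn1, hn2⟩ := mem_inf.1 hn
    apply hnC
    have h1 : n * x * n⁻¹ ∈ C := (mem_normalizer_iff.1 hn2 x).1 hxC
    have h2 : n * x * n⁻¹ = x := hiso n (mem_centralizer_singleton_iff.1 (mem_inf.1 h1).2).symm
    refine mem_inf.2 ⟨hn1, mem_centralizer_singleton_iff.2 ?_⟩
    nth_rewrite 2 [← h2]; group
  intro s hs
  rw [← hCT] at hs
  exact (mem_centralizer_singleton_iff.1 (mem_inf.1 hs).2).symm

theorem no_comp (hp2 : p ≠ 2) {x : G} (hiso : IsIsolated x) (hxp : x ^ p = 1) {S : Subgroup G} (hS : IsSylIn p S ⊤)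
    (hxS : x ∈ S) {L : Subgroup G} (hL : IsComponent L) (hdvd : p ∣ Nat.card L)
    (h : ∀ u ∈ S ⊓ L, u ^ p = 1 → ∃ c ∈ centralizer (L : Set G), ∃ j : ℤ, u = c * x ^ j) : False := by
  have hpp := hp.out
  have hcomm := comm_of_pgroup hiso hS.2.1 hxS
  have hfix : ∀ u ∈ S ⊓ L, u ^ p = 1 → ∀ g ∈ L, g * u * g⁻¹ ∈ S → g * u * g⁻¹ = u := by
    intro u hu hup g hg hgS
    obtain ⟨c, hc, j, rfl⟩ := h u hu hup
    have hgc : g * c = c * g := mem_centralizer_iff.1 hc g hg
    have e1 : g * (c * x ^ j) * g⁻¹ = c * (g * x * g⁻¹) ^ j := by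
      rw [conj_zpow, ← mul_assoc, hgc]; group
    by_cases hj : (p : ℤ) ∣ j
    · obtain ⟨m, rfl⟩ := hj
      have : x ^ ((p : ℤ) * m) = 1 := by rw [zpow_mul, zpow_natCast, hxp, one_zpow]
      rw [this, mul_one, hgc, mul_inv_cancel_right]
    · have h1 : IsCoprime (p : ℤ) j := (Nat.prime_iff_prime_int.1 hpp).coprime_iff_not_dvd.2 hj
      obtain ⟨a, b, hab⟩ := h1
      have hcx : Commute x c := by
        have h2 : Commute x (c * x ^ j) := hcomm _ (mem_inf.1 hu).1
        have h3 : Commute x (c * x ^ j * (x ^ j)⁻¹) := h2.mul_right ((Commute.refl x).zpow_right j).inv_right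
        rwa [mul_inv_cancel_right] at h3
      have h2 : Commute x ((g * x * g⁻¹) ^ j) := by
        have h3 : Commute x (c * (g * x * g⁻¹) ^ j) := by rw [← e1]; exact hcomm _ hgS
        have h4 := (hcx.inv_right).mul_right h3
        rwa [inv_mul_cancel_left] at h4
      have h3 : Commute x (g * x * g⁻¹) := by
        have h4 := h2.zpow_right b
        rw [← zpow_mul] at h4
        have e2 : (g * x * g⁻¹) ^ (j * b) = g * x * g⁻¹ := by
          have e3 : j * b = 1 + p * (-a) := by linear_combination hab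
          rw [e3, zpow_add, zpow_mul, zpow_natCast, conj_pow, hxp]
          simp
        rwa [e2] at h4
      rw [e1, hiso g h3]
  obtain ⟨S', hS'⟩ := hS.exists_sylow_top
  obtain ⟨P, hP⟩ := Cfsg.Agent.H1.Subn.sylow_inf_subnormal p L hL.1 S'
  have hnpc : HasNormalPComplement p L := by
    apply Cfsg.Agent.H2.Fusion3.npc_of_frobenius_sylow P
    intro Q hQP g hg hgc
    have h1 := Cfsg.Agent.H12.BG1.coprime_trivial_of_order_p p hp2 Q ⊥ (zpowers g) (P.isPGroup'.to_le hQP) bot_le
      ⟨inferInstance, by intro a ha; rw [mem_bot] at ha; rw [ha, one_pow]⟩ (zpowers_le.2 hg) (by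
        rw [Nat.card_zpowers]; exact hgc) (by
        intro y hy hyo
        have hyQ := (mem_inf.1 hy).1
        have hyS : (y : G) ∈ S := by
          have := hQP hyQ
          rw [hP, hS'] at this
          exact mem_subgroupOf.1 this
        rw [zpowers_le, mem_centralizer_singleton_iff]
        have h2 : g * y * g⁻¹ ∈ Q := (mem_normalizer_iff.1 hg y).1 hyQ
        have h3 : ((g * y * g⁻¹ : L) : G) ∈ S := by
          have := hQP h2
          rw [hP, hS'] at this
          exact mem_subgroupOf.1 this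
        have h4 := hfix (y : G) (mem_inf.2 ⟨hyS, y.2⟩) (by
          have := pow_orderOf_eq_one y
          rw [hyo] at this
          exact congrArg Subtype.val this) g g.2 h3
        have h5 : g * y * g⁻¹ = y := Subtype.ext h4
        nth_rewrite 2 [← h5]; group)
    exact h1 (mem_zpowers g)
  obtain ⟨P', N, hN, hcompl⟩ := hnpc
  have hNtop : N = ⊤ := by
    by_contra hne
    have h1 := IsQuasisimple.quotient hL.2 N hne
    apply IsQuasisimple.not_isNilpotent h1
    have h2 : IsPGroup p (L ⧸ N) := by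
      have h3 : Nat.card (L ⧸ N) = Nat.card P' := by
        have := hcompl.symm.index_eq_card
        rw [← this]; rfl
      obtain ⟨k, hk⟩ := IsPGroup.iff_card.1 P'.isPGroup'
      exact IsPGroup.of_card (h3.trans hk)
    exact h2.isNilpotent
  have h2 := hcompl.disjoint.eq_bot
  rw [hNtop, top_inf_eq] at h2
  have h3 := P'.not_dvd_index
  rw [h2, index_bot] at h3
  exact h3 hdvd

theorem main (hp2 : p ≠ 2) (hcore : Cfsg.pPrimeCore p G = ⊥)
    (hrank : Cfsg.PRankLE p 2 G) (x : G) (hx : orderOf x = p) (hiso : Cfsg.IsIsolated x) (hnc : x ∉ Subgroup.center G) :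
    IsSimpleGroup ↥(Cfsg.generalizedFittingSubgroup G) ∧ ¬ IsMulCommutative ↥(Cfsg.generalizedFittingSubgroup G) := by
  classical
  have hpp := hp.out
  have hxp : x ^ p = 1 := by rw [← hx]; exact pow_orderOf_eq_one x
  have hx1 : x ≠ 1 := by
    rintro rfl
    rw [orderOf_one] at hx
    exact hpp.one_lt.ne hx
  obtain ⟨S, hxS, hS⟩ := exists_isSylIn_ge (p := p) (A := zpowers x) (H := ⊤) (by
    apply IsPGroup.of_card (n := 1); rw [Nat.card_zpowers, hx, pow_one]) le_top
  replace hxS : x ∈ S := hxS (mem_zpowers x)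
  have hcomm := comm_of_pgroup hiso hS.2.1 hxS
  -- the `p`-core
  set R := pCore p G with hR
  haveI hRn : R.Normal := Cfsg.Agent.H1.Nilp.pCore_normal p
  have hRp : IsPGroup p R := Cfsg.Agent.H1.Nilp.pCore_isPGroup p
  have hRS : R ≤ S := by
    obtain ⟨g, hg, h1⟩ := hS.exists_conj_le hRp le_top
    rwa [cj_eq_of_normal] at h1
  have hxR : x ∉ R := by
    intro h1
    apply hnc
    rw [mem_center_iff]
    intro g
    have h2 := hiso g (hcomm _ (hRS (hRn.conj_mem x h1 g)))
    nth_rewrite 2 [← h2]; group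
  -- order of components
  have hdvd : ∀ L : Subgroup G, IsComponent L → p ∣ Nat.card L := by
    intro L hL
    by_contra hnd
    have h1 := Cfsg.Agent.H11.Cores.le_pPrimeCore_of_isSubnormal p hL.1 ((Nat.Prime.coprime_iff_not_dvd hpp).2 hnd).symm
    rw [hcore, le_bot_iff] at h1
    exact IsComponent.ne_bot hL h1
  have hex : ∀ L : Subgroup G, IsComponent L → ∃ t ∈ S ⊓ L, t ^ p = 1 ∧ t ≠ 1 := by
    intro L hL
    obtain ⟨S', hS'⟩ := hS.exists_sylow_top
    obtain ⟨P, hP⟩ := Cfsg.Agent.H1.Subn.sylow_inf_subnormal p L hL.1 S'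
    have h1 : p ∣ Nat.card P := P.dvd_card_of_dvd_card (hdvd L hL)
    obtain ⟨t, ht⟩ := exists_prime_orderOf_dvd_card' p h1
    have h2 : ((t : L) : G) ∈ S := by
      have h3 : (P : Subgroup L) ≤ S.subgroupOf L := by rw [hP, hS']
      exact mem_subgroupOf.1 (h3 t.2)
    refine ⟨((t : L) : G), mem_inf.2 ⟨h2, (t : L).2⟩, ?_, ?_⟩
    · have := pow_orderOf_eq_one t
      rw [ht] at this
      exact congrArg (fun z : P => ((z : L) : G)) this
    · intro h3
      have : t = 1 := Subtype.ext (Subtype.ext h3)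
      rw [this, orderOf_one] at ht
      exact hpp.one_lt.ne ht
  -- the rank argument
  have hrk : ∀ z : G, z ^ p = 1 → x * z = z * x → z ∉ zpowers x → ∀ u : G, u ^ p = 1 → x * u = u * x → z * u = u * z →
      ∃ i j : ℤ, u = z ^ i * x ^ j := by
    intro z hzp hxz hzx u hup hxu hzu
    have hxzc : Commute x z := hxz
    have hle : zpowers z ≤ centralizer ((zpowers x : Subgroup G) : Set G) := by
      rw [zpowers_le, mem_centralizer_iff]
      intro y hy
      obtain ⟨n, rfl⟩ := mem_zpowers_iff.1 hy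
      exact (hxzc.zpow_left n).eq
    set A := zpowers x ⊔ zpowers z with hA
    have hmem : ∀ a ∈ A, ∃ i j : ℤ, a = z ^ i * x ^ j := by
      intro a ha
      obtain ⟨b, hb, c, hc, rfl⟩ := (Cfsg.Agent.H22.Basic.mem_sup_of_le_normalizer
        (hle.trans (Subgroup.centralizer_le_normalizer _))).1 ha
      obtain ⟨j, rfl⟩ := mem_zpowers_iff.1 hb
      obtain ⟨i, rfl⟩ := mem_zpowers_iff.1 hc
      exact ⟨i, j, (hxzc.zpow_zpow j i).eq⟩
    have hex : ∀ a ∈ A, a ^ p = 1 := by
      intro a ha
      obtain ⟨i, j, rfl⟩ := hmem a ha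
      rw [((hxzc.symm).zpow_zpow i j).mul_pow, ← zpow_natCast, ← zpow_mul, mul_comm, zpow_mul, zpow_natCast, hzp, one_zpow,
        ← zpow_natCast, ← zpow_mul, mul_comm, zpow_mul, zpow_natCast, hxp, one_zpow, one_mul]
    have hab : ∀ a ∈ A, ∀ b ∈ A, a * b = b * a := by
      intro a ha b hb
      obtain ⟨i, j, rfl⟩ := hmem a ha
      obtain ⟨k, l, rfl⟩ := hmem b hb
      have c1 : Commute (z ^ i) (z ^ k) := (Commute.refl z).zpow_zpow i k
      have c2 : Commute (z ^ i) (x ^ l) := hxzc.symm.zpow_zpow i l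
      have c3 : Commute (x ^ j) (z ^ k) := hxzc.zpow_zpow j k
      have c4 : Commute (x ^ j) (x ^ l) := (Commute.refl x).zpow_zpow j l
      exact ((c1.mul_right c2).mul_left (c3.mul_right c4)).eq
    have hc : p ^ 2 ≤ Nat.card A := by
      have hAp : IsPGroup p A := fun a => ⟨1, by rw [pow_one]; exact Subtype.ext (hex a a.2)⟩
      obtain ⟨m, hm⟩ := IsPGroup.iff_card.1 hAp
      have h3 : Nat.card (zpowers x) < Nat.card A := by
        apply Cfsg.Agent.H2.Card.card_lt_of_lt
        refine lt_of_le_of_ne le_sup_left ?_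
        intro he
        apply hzx
        rw [he]
        exact (le_sup_right : zpowers z ≤ _) (mem_zpowers z)
      rw [Nat.card_zpowers, hx, hm] at h3
      rw [hm]
      apply Nat.pow_le_pow_right hpp.pos
      by_contra hlt
      have h4 : m ≤ 1 := by omega
      have h5 : p ^ m ≤ p ^ 1 := Nat.pow_le_pow_right hpp.pos h4
      rw [pow_one] at h5
      omega
    apply hmem
    refine Cfsg.Agent.H2.ChiefR.max_ea hrank hab hex hc hup ?_
    intro a ha
    obtain ⟨i, j, rfl⟩ := hmem a ha
    have c1 : Commute u (z ^ i) := (show Commute u z from hzu.symm).zpow_right i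
    have c2 : Commute u (x ^ j) := (show Commute u x from hxu.symm).zpow_right j
    exact (c1.mul_right c2).eq
  -- the `p`-core is trivial
  have hfit : fittingSubgroup G = R := Cfsg.Agent.H11.Bal.fitting_eq_pCore p hcore
  have hRb : R = ⊥ := by
    by_contra hRne
    have hRnt : Nontrivial R := (Subgroup.nontrivial_iff_ne_bot R).2 hRne
    have hRd : p ∣ Nat.card R := by
      obtain ⟨n, hn0, hn⟩ := hRp.nontrivial_iff_card.1 hRnt
      rw [hn]; exact dvd_pow_self p hn0.ne'
    obtain ⟨z, hz⟩ := exists_prime_orderOf_dvd_card' p hRd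
    have hzp : (z : G) ^ p = 1 := by
      have := pow_orderOf_eq_one z
      rw [hz] at this
      exact congrArg Subtype.val this
    have hz1 : (z : G) ≠ 1 := by
      intro h1
      have : z = 1 := Subtype.ext h1
      rw [this, orderOf_one] at hz
      exact hpp.one_lt.ne hz
    have hzx : (z : G) ∉ zpowers x := by
      intro h1
      have h2 : zpowers (z : G) = zpowers x := by
        apply Subgroup.eq_of_le_of_card_ge (zpowers_le.2 h1)
        rw [Nat.card_zpowers, Nat.card_zpowers, hx, orderOf_eq_prime hzp hz1]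
      apply hxR
      have h3 : x ∈ zpowers (z : G) := by rw [h2]; exact mem_zpowers x
      exact (zpowers_le.2 z.2) h3
    have hno : ∀ L : Subgroup G, ¬ IsComponent L := by
      intro L hL
      refine no_comp hp2 hiso hxp hS hxS hL (hdvd L hL) ?_
      intro u hu hup
      have hLR : ⁅L, R⁆ = ⊥ := by
        rw [← hfit]
        exact le_bot_iff.1 ((commutator_mono (le_layer hL) le_rfl).trans commutator_layer_fitting.le)
      rw [commutator_eq_bot_iff_le_centralizer] at hLR
      have hzu : (z : G) * u = u * z := mem_centralizer_iff.1 (hLR (mem_inf.1 hu).2) z z.2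
      obtain ⟨i, j, hij⟩ := hrk z hzp (hcomm _ (hRS z.2)) hzx u hup (hcomm _ (mem_inf.1 hu).1) hzu
      refine ⟨(z : G) ^ i, ?_, j, hij⟩
      rw [mem_centralizer_iff]
      intro l hl
      exact ((show Commute l (z : G) from (mem_centralizer_iff.1 (hLR hl) z z.2).symm).zpow_right i).eq
    have hlay := Cfsg.Agent.H11.FStar.layer_eq_bot_iff_no_component.2 hno
    have h1 := Cfsg.Agent.H11.FStar.centralizer_generalizedFitting_le (G := G)
    rw [generalizedFittingSubgroup, hlay, bot_sup_eq, hfit] at h1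
    apply hxR
    apply h1
    rw [mem_centralizer_iff]
    intro r hr
    exact (hcomm r (hRS hr)).symm
  -- centers of components
  have hZ : ∀ L : Subgroup G, IsComponent L → ∀ z ∈ L, z ∈ centralizer (L : Set G) → z = 1 := by
    intro L hL z hz hzc
    have h1 : IsPGroup p (center L) := Cfsg.Agent.H11.KSections.isPGroup_center_of_isComponent p hcore hL
    have h2 : ((center L).map L.subtype) ≤ R :=
      Cfsg.Agent.H11.Cores.le_pCore_of_isSubnormal p (by
        exact IsSubnormal.trans' (inferInstance : (center L).Normal).isSubnormal hL.1) (h1.map _)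
    rw [hRb] at h2
    have h3 : z ∈ (center L).map L.subtype := ⟨⟨z, hz⟩, by
      rw [SetLike.mem_coe, mem_center_iff]
      intro l
      exact Subtype.ext (mem_centralizer_iff.1 hzc l l.2), rfl⟩
    exact mem_bot.1 (h2 h3)
  -- uniqueness of the component
  have hunique : ∀ L₁ L₂ : Subgroup G, IsComponent L₁ → IsComponent L₂ → L₁ = L₂ := by
    intro L₁ L₂ hL₁ hL₂
    by_contra hne
    have hcm := commutator_eq_bot_of_ne hL₁ hL₂ hne
    rw [commutator_eq_bot_iff_le_centralizer] at hcm
    have hcm2 : L₂ ≤ centralizer (L₁ : Set G) := by rw [le_centralizer_iff]; exact hcm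
    have key : ∀ A B : Subgroup G, IsComponent A → A ≤ centralizer (B : Set G) → ∀ z ∈ S ⊓ B, z ^ p = 1 → z ∉ zpowers x → False := by
      intro A B hA hAB z hz hzp hzx
      refine no_comp hp2 hiso hxp hS hxS hA (hdvd A hA) ?_
      intro u hu hup
      have hzu : z * u = u * z := mem_centralizer_iff.1 (hAB (mem_inf.1 hu).2) z (mem_inf.1 hz).2
      obtain ⟨i, j, hij⟩ := hrk z hzp (hcomm _ (mem_inf.1 hz).1) hzx u hup (hcomm _ (mem_inf.1 hu).1) hzu
      refine ⟨z ^ i, ?_, j, hij⟩
      rw [mem_centralizer_iff]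
      intro l hl
      exact ((show Commute l z from (mem_centralizer_iff.1 (hAB hl) z (mem_inf.1 hz).2).symm).zpow_right i).eq
    obtain ⟨z, hz, hzp, hz1⟩ := hex L₂ hL₂
    obtain ⟨w, hw, hwp, hw1⟩ := hex L₁ hL₁
    by_cases hzx : z ∈ zpowers x
    · by_cases hwx : w ∈ zpowers x
      · have h2 : zpowers z = zpowers x := by
          apply Subgroup.eq_of_le_of_card_ge (zpowers_le.2 hzx)
          rw [Nat.card_zpowers, Nat.card_zpowers, hx, orderOf_eq_prime hzp hz1]
        have h3 : w ∈ L₂ := by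
          rw [← h2] at hwx
          exact (zpowers_le.2 (mem_inf.1 hz).2) hwx
        exact hw1 (hZ L₁ hL₁ w (mem_inf.1 hw).2 (hcm2 h3))
      · exact key L₂ L₁ hL₂ hcm2 w hw hwp hwx
    · exact key L₁ L₂ hL₁ hcm z hz hzp hzx
  -- existence
  obtain ⟨L, hL⟩ : ∃ L : Subgroup G, IsComponent L := by
    by_contra hno
    push Not at hno
    have hlay := Cfsg.Agent.H11.FStar.layer_eq_bot_iff_no_component.2 hno
    have h1 := Cfsg.Agent.H11.FStar.centralizer_generalizedFitting_le (G := G)
    rw [generalizedFittingSubgroup, hlay, bot_sup_eq, hfit, hRb] at h1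
    apply hx1
    apply mem_bot.1 (h1 _)
    rw [mem_centralizer_iff]
    intro r hr
    rw [show r = 1 from hr, one_mul, mul_one]
  have hF : generalizedFittingSubgroup G = L := by
    rw [generalizedFittingSubgroup, hfit, hRb, sup_bot_eq]
    apply le_antisymm
    · rw [layer_le_iff]
      intro K hK
      rw [hunique K L hK hL]
    · exact le_layer hL
  rw [hF]
  refine ⟨?_, IsQuasisimple.not_isMulCommutative hL.2⟩
  have hcb : center L = ⊥ := by
    rw [eq_bot_iff]
    intro z hz
    rw [mem_bot]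
    apply Subtype.ext
    apply hZ L hL z z.2
    rw [mem_centralizer_iff]
    intro l hl
    exact congrArg Subtype.val (mem_center_iff.1 hz ⟨l, hl⟩)
  haveI := hL.2.2
  haveI := IsQuasisimple.nontrivial hL.2
  refine ⟨fun N hN => ?_⟩
  rcases IsQuasisimple.normal_eq_top_or_le_center hL.2 N with h | h
  · right; exact h
  · left; rw [hcb, le_bot_iff] at h; exact h

end Cfsg.Agent.H2.Iso
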