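import Mathlib
import Cfsg.Prelude
import Cfsg.Agent.H11_FStar
import Cfsg.Agent.H11_Bal3
import Cfsg.Agent.H2_Quad
import Cfsg.Agent.H2_ThompFact
import Cfsg.Agent.H11_Cores

/-! Automorphisms trivial on a Sylow subgroup; classes of normal closures. -/

set_option autoImplicit false
set_option linter.unusedSectionVars false
set_option linter.style.haveILetI false

open Subgroup Cfsg
open scoped commutatorElement

namespace Cfsg.Agent.H2.Misc3

section crossed

variable {G : Type*} [Group G] [Finite G] {p : ℕ} [hp : Fact p.Prime]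

/-- a crossed homomorphism into an abelian normal `p`-subgroup, trivial on a Sylow subgroup, is principal -/
theorem principal (T : Sylow p G) (Z : Subgroup G) [hZn : Z.Normal] (hZ : ∀ x ∈ Z, ∀ y ∈ Z, x * y = y * x) (hZp : IsPGroup p Z)
    (δ : G → G) (hδZ : ∀ g, δ g ∈ Z) (hδ : ∀ g h, δ (g * h) = δ g * (g * δ h * g⁻¹)) (hT : ∀ t ∈ (T : Subgroup G), δ t = 1) :
    ∃ z ∈ Z, ∀ g, δ g = z * g * z⁻¹ * g⁻¹ := by
  classical
  letI : CommGroup Z := { (inferInstance : Group Z) with mul_comm := fun a b => Subtype.ext (hZ a a.2 b b.2) }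
  -- the action of `G` on `Z`
  let c : G →* MulAut Z := MulAut.conjNormal
  let d : G → Z := fun g => ⟨δ g, hδZ g⟩
  have hd : ∀ g h, d (g * h) = d g * c g (d h) := fun g h => Subtype.ext (hδ g h)
  have hdT : ∀ g, ∀ t ∈ (T : Subgroup G), d (g * t) = d g := by
    intro g t ht
    rw [hd]
    have : d t = 1 := Subtype.ext (hT t ht)
    rw [this, map_one, mul_one]
  -- descend to cosets
  let D : G ⧸ (T : Subgroup G) → Z := Quotient.lift d (by
    intro a b hab
    have h1 : a⁻¹ * b ∈ (T : Subgroup G) := QuotientGroup.leftRel_apply.1 hab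
    have h2 := hdT a _ h1
    rw [mul_inv_cancel_left] at h2
    exact h2.symm)
  have hD : ∀ g, D (QuotientGroup.mk g) = d g := fun g => rfl
  haveI : Fintype (G ⧸ (T : Subgroup G)) := Fintype.ofFinite _
  set w : Z := ∏ x : G ⧸ (T : Subgroup G), D x with hw
  have hgw : ∀ g : G, c g w = (d g ^ (Fintype.card (G ⧸ (T : Subgroup G))))⁻¹ * w := by
    intro g
    rw [hw, map_prod]
    have h1 : ∀ x : G ⧸ (T : Subgroup G), c g (D x) = (d g)⁻¹ * D (g • x) := by
      intro x
      obtain ⟨y, rfl⟩ := QuotientGroup.mk_surjective x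
      rw [MulAction.Quotient.smul_mk, smul_eq_mul, hD, hD, hd, inv_mul_cancel_left]
    rw [Finset.prod_congr rfl (fun x _ => h1 x), Finset.prod_mul_distrib, Finset.prod_const, Finset.card_univ, inv_pow]
    congr 1
    exact Equiv.prod_comp (MulAction.toPerm g) D
  set m := Fintype.card (G ⧸ (T : Subgroup G)) with hm
  have hmp : ¬ p ∣ m := by
    have := T.not_dvd_index
    rwa [Subgroup.index, Nat.card_eq_fintype_card] at this
  -- invert `m`
  obtain ⟨k, hk⟩ := IsPGroup.iff_card.1 hZp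
  have hcop : m.Coprime (p ^ k) := ((Nat.Prime.coprime_iff_not_dvd hp.out).2 hmp).symm.pow_right k
  obtain ⟨m', hm'⟩ : ∃ m' : ℕ, m * m' ≡ 1 [MOD p ^ k] := by
    rcases Nat.eq_zero_or_pos k with rfl | hk0
    · exact ⟨0, by rw [pow_zero]; exact Nat.modEq_one⟩
    · obtain ⟨m', h1⟩ := Nat.exists_mul_mod_eq_one_of_coprime hcop (Nat.one_lt_pow hk0.ne' hp.out.one_lt)
      exact ⟨m', by rw [Nat.ModEq, h1.2, Nat.mod_eq_of_lt (Nat.one_lt_pow hk0.ne' hp.out.one_lt)]⟩
  have hpow : ∀ x : Z, x ^ (m * m') = x := by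
    intro x
    have h1 : x ^ (p ^ k) = 1 := by rw [← hk]; exact pow_card_eq_one'
    have h2 := pow_eq_pow_iff_modEq (x := x) (n := m * m') (m := 1)
    rw [pow_one] at h2
    apply h2.2
    exact hm'.of_dvd (orderOf_dvd_of_pow_eq_one h1)
  refine ⟨((w ^ m' : Z) : G), (w ^ m').2, fun g => ?_⟩
  have h1 : d g = w ^ m' * (c g (w ^ m'))⁻¹ := by
    have h2 : d g ^ m = w * (c g w)⁻¹ := by
      rw [hgw, mul_inv_rev, inv_inv, ← mul_assoc, mul_inv_cancel, one_mul]
    rw [← hpow (d g), pow_mul, h2, mul_pow, inv_pow, map_pow]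
  have h3 := congrArg Subtype.val h1
  change δ g = ((w ^ m' : Z) : G) * (g * ((w ^ m' : Z) : G) * g⁻¹)⁻¹ at h3
  rw [h3]; group

theorem inner_of_fix (hcore : pPrimeCore p G = ⊥) (T : Sylow p G) (α : MulAut G) (hfixT : ∀ x ∈ (T : Subgroup G), α x = x)
    (hfixE : ∀ x ∈ layer G, α x = x) : ∃ g : G, ∀ x : G, α x = g * x * g⁻¹ := by
  classical
  have hFp := Cfsg.Agent.H11.Bal.fitting_eq_pCore (G := G) p hcore
  have hpT : pCore p G ≤ (T : Subgroup G) := Cfsg.Agent.H2.ThompFact.pCore_le_sylow T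
  haveI hFn : (generalizedFittingSubgroup G).Normal := inferInstance
  set Z : Subgroup G := centralizer (generalizedFittingSubgroup G : Set G) with hZdef
  haveI hZn : Z.Normal := by rw [hZdef]; infer_instance
  have hZF : Z ≤ fittingSubgroup G := Cfsg.Agent.H11.FStar.centralizer_generalizedFitting_le_fitting
  have hZgF : Z ≤ generalizedFittingSubgroup G := hZF.trans le_sup_right
  have hZab : ∀ x ∈ Z, ∀ y ∈ Z, x * y = y * x := fun x hx y hy => (Subgroup.mem_centralizer_iff.1 hx y (hZgF hy)).symm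
  have hZp : IsPGroup p Z := (Cfsg.Agent.H11.Cores.pCore_isPGroup p).to_le (hFp ▸ hZF)
  have hfix : ∀ x ∈ generalizedFittingSubgroup G, α x = x := by
    have h1 : generalizedFittingSubgroup G ≤ α.toMonoidHom.eqLocus (MonoidHom.id G) := by
      refine sup_le ?_ ?_
      · intro x hx; exact hfixE x hx
      · intro x hx
        rw [hFp] at hx
        exact hfixT x (hpT hx)
    intro x hx
    exact h1 hx
  obtain ⟨z, hz, h2⟩ := principal T Z hZab hZp (fun g => α g * g⁻¹) (fun g => by
      rw [hZdef, Subgroup.mem_centralizer_iff]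
      intro x hx
      have hx' : g⁻¹ * x * g ∈ generalizedFittingSubgroup G := by
        have := hFn.conj_mem x hx g⁻¹
        rwa [inv_inv] at this
      have h3 := hfix _ hx'
      rw [map_mul, map_mul, map_inv, hfix x hx] at h3
      have h4 : x * α g = α g * (g⁻¹ * x * g) := by
        rw [← h3]; group
      calc x * (α g * g⁻¹) = (x * α g) * g⁻¹ := by group
        _ = α g * (g⁻¹ * x * g) * g⁻¹ := by rw [h4]
        _ = α g * g⁻¹ * x := by group) (fun g h => by
      simp only [map_mul]; group) (fun t ht => by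
      simp only [hfixT t ht, mul_inv_cancel])
  refine ⟨z, fun x => ?_⟩
  have := h2 x
  calc α x = (α x * x⁻¹) * x := by group
    _ = z * x * z⁻¹ := by rw [this]; group

end crossed

section cls

variable {P : Type*} [Group P]

theorem class_lt [Group.IsNilpotent P] (hna : ¬ IsMulCommutative P) {E : Subgroup P} (hE : IsMulCommutative E) :
    Group.nilpotencyClass ↥(Subgroup.normalClosure (E : Set P)) < Group.nilpotencyClass P := by
  classical
  set N := Subgroup.normalClosure (E : Set P) with hN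
  set D : Subgroup P := (⊤ : Subgroup P).lowerCentralSeries 1 with hD
  set L : Subgroup P := (⊤ : Subgroup P).lowerCentralSeries 2 with hL
  have hDc : D = _root_.commutator P := rfl
  haveI : D.Normal := by rw [hDc]; infer_instance
  haveI : L.Normal := by
    have : L = ⁅D, (⊤ : Subgroup P)⁆ := rfl
    rw [this]; infer_instance
  have hEab : ∀ x ∈ E, ∀ y ∈ E, x * y = y * x := fun x hx y hy => by
    have := hE.is_comm.comm (⟨x, hx⟩ : E) ⟨y, hy⟩
    exact congrArg Subtype.val this
  have hND : N ≤ E ⊔ D := by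
    haveI : (E ⊔ D).Normal := by
      refine ⟨fun n hn g => ?_⟩
      have h1 : ⁅g, n⁆ ∈ E ⊔ D := (le_sup_right : D ≤ E ⊔ D) (by
        rw [hDc]; exact Subgroup.commutator_mem_commutator (Subgroup.mem_top _) (Subgroup.mem_top _))
      have h2 : g * n * g⁻¹ = ⁅g, n⁆ * n := by rw [commutatorElement_def]; group
      rw [h2]
      exact mul_mem h1 hn
    exact Subgroup.normalClosure_le_normal (le_sup_left : E ≤ E ⊔ D)
  have hcen : ∀ c ∈ D, ∀ x : P, QuotientGroup.mk' L c * QuotientGroup.mk' L x = QuotientGroup.mk' L x * QuotientGroup.mk' L c := by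
    intro c hc x
    have h1 : ⁅c, x⁆ ∈ L := Subgroup.commutator_mem_commutator (H₁ := D) hc (Subgroup.mem_top x)
    have h2 : QuotientGroup.mk' L ⁅c, x⁆ = 1 := (QuotientGroup.eq_one_iff _).2 h1
    rw [map_commutatorElement] at h2
    exact commutatorElement_eq_one_iff_mul_comm.1 h2
  have hNN : ⁅N, N⁆ ≤ L := by
    rw [Subgroup.commutator_le]
    intro g hg h hh
    obtain ⟨e₁, he₁, c₁, hc₁, rfl⟩ := Subgroup.mem_sup_of_normal_right.1 (hND hg)
    obtain ⟨e₂, he₂, c₂, hc₂, rfl⟩ := Subgroup.mem_sup_of_normal_right.1 (hND hh)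
    rw [← QuotientGroup.eq_one_iff (N := L)]
    change QuotientGroup.mk' L ⁅e₁ * c₁, e₂ * c₂⁆ = 1
    rw [map_commutatorElement, commutatorElement_eq_one_iff_mul_comm, map_mul, map_mul]
    have h3 : QuotientGroup.mk' L e₁ * QuotientGroup.mk' L e₂ = QuotientGroup.mk' L e₂ * QuotientGroup.mk' L e₁ := by
      rw [← map_mul, ← map_mul, hEab e₁ he₁ e₂ he₂]
    have a1 := hcen c₁ hc₁ e₂
    have a2 := hcen c₂ hc₂ e₁
    have a3 := hcen c₁ hc₁ c₂
    generalize QuotientGroup.mk' L e₁ = x₁ at *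
    generalize QuotientGroup.mk' L e₂ = x₂ at *
    generalize QuotientGroup.mk' L c₁ = y₁ at *
    generalize QuotientGroup.mk' L c₂ = y₂ at *
    calc x₁ * y₁ * (x₂ * y₂) = x₁ * (y₁ * x₂) * y₂ := by group
      _ = x₁ * x₂ * (y₁ * y₂) := by rw [a1]; group
      _ = x₂ * (x₁ * y₂) * y₁ := by rw [h3, a3]; group
      _ = x₂ * y₂ * (x₁ * y₁) := by rw [← a2]; group
  have hlcs : ∀ k, 1 ≤ k → N.lowerCentralSeries k ≤ (⊤ : Subgroup P).lowerCentralSeries (k + 1) := by
    intro k hk
    induction k, hk using Nat.le_induction with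
    | base => exact hNN
    | succ k hk ih =>
      rw [Subgroup.lowerCentralSeries_succ, Subgroup.lowerCentralSeries_succ]
      exact Subgroup.commutator_mono ih le_top
  have hc2 : 2 ≤ Group.nilpotencyClass P := by
    by_contra hlt
    have h1 : Group.nilpotencyClass P ≤ 1 := by omega
    rw [← Subgroup.lowerCentralSeries_eq_bot_iff_nilpotencyClass_le] at h1
    apply hna
    rw [Subgroup.top_lowerCentralSeries_one] at h1
    refine ⟨⟨fun a b => ?_⟩⟩
    have h2 : ⁅a, b⁆ ∈ _root_.commutator P := Subgroup.commutator_mem_commutator (Subgroup.mem_top _) (Subgroup.mem_top _)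
    rw [h1, Subgroup.mem_bot] at h2
    exact commutatorElement_eq_one_iff_mul_comm.1 h2
  obtain ⟨c, hc⟩ : ∃ c, Group.nilpotencyClass P = c + 2 := ⟨Group.nilpotencyClass P - 2, by omega⟩
  have h3 : (⊤ : Subgroup P).lowerCentralSeries (c + 2) = ⊥ := by
    rw [Subgroup.lowerCentralSeries_eq_bot_iff_nilpotencyClass_le]; exact hc.le
  have h4 : N.lowerCentralSeries (c + 1) = ⊥ := by
    rw [eq_bot_iff, ← h3]
    exact hlcs (c + 1) (by omega)
  have h5 : (⊤ : Subgroup N).lowerCentralSeries (c + 1) = ⊥ := by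
    rw [← Subgroup.top_subtype_lowerCentralSeries] at h4
    exact (Subgroup.map_eq_bot_iff_of_injective _ N.subtype_injective).1 h4
  rw [Subgroup.lowerCentralSeries_eq_bot_iff_nilpotencyClass_le] at h5
  omega

end cls

end Cfsg.Agent.H2.Misc3
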