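import Mathlib
import Cfsg.Agent.H2_PGroup
import Cfsg.Agent.H1_Nilp
import Cfsg.Prelude.Def_Transfer

set_option autoImplicit false

namespace Cfsg.Agent.H2.ST

universe u

section
variable {T : Type u} [Group T] [Finite T]

open scoped commutatorElement

/-- central element modulo a smaller normal subgroup -/
theorem exists_central (hT : IsPGroup 2 T) {N M : Subgroup T} [hN : N.Normal] [hM : M.Normal]
    (hlt : N < M) : ∃ x ∈ M, x ∉ N ∧ ∀ y : T, ⁅x, y⁆ ∈ N := by
  haveI : (M.map (QuotientGroup.mk' N)).Normal := hM.map _ (QuotientGroup.mk'_surjective N)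
  have hQ : IsPGroup 2 (T ⧸ N) := hT.to_quotient N
  have hne : M.map (QuotientGroup.mk' N) ≠ ⊥ := by
    intro h
    rw [Subgroup.map_eq_bot_iff, QuotientGroup.ker_mk'] at h
    exact absurd hlt (not_lt_of_ge h)
  haveI : Fact (Nat.Prime 2) := ⟨Nat.prime_two⟩
  have h1 := Cfsg.Agent.H2.PGroup.inf_center_ne_bot hQ hne
  obtain ⟨y, hy⟩ := Subgroup.ne_bot_iff_exists_ne_one.1 h1
  obtain ⟨y, hyM, hyc⟩ := y
  obtain ⟨x, hx, rfl⟩ := hyM
  refine ⟨x, hx, ?_, ?_⟩
  · intro hxN
    apply hy
    apply Subtype.ext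
    exact (QuotientGroup.eq_one_iff x).2 hxN
  · intro y
    have h2 := Subgroup.mem_center_iff.1 hyc (QuotientGroup.mk' N y)
    have h3 : QuotientGroup.mk' N ⁅x, y⁆ = 1 := by
      rw [map_commutatorElement, commutatorElement_eq_one_iff_mul_comm]
      exact h2.symm
    exact (QuotientGroup.eq_one_iff _).1 h3

theorem card_lt_of_lt {A B : Subgroup T} (h : A < B) : Nat.card A < Nat.card B := by
  refine lt_of_le_of_ne (Nat.le_of_dvd Nat.card_pos (Subgroup.card_dvd_of_le h.le)) (fun h1 => ?_)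
  exact h.ne (Subgroup.eq_of_le_of_card_ge h.le h1.ge)

theorem step {A B K : Subgroup T} (hAB : A ≤ B) (hc : Nat.card B = 2 * Nat.card A) (hAK : A ≤ K)
    {x : T} (hxB : x ∈ B) (hxK : x ∈ K) (hxA : x ∉ A) : B ≤ K := by
  have h1 : A ≤ K ⊓ B := le_inf hAK hAB
  have h2 : A < K ⊓ B := lt_of_le_of_ne h1 (fun h => hxA (by rw [h]; exact ⟨hxK, hxB⟩))
  have h3 : Nat.card A ∣ Nat.card ↥(K ⊓ B) := Subgroup.card_dvd_of_le h1
  have h4 : Nat.card A < Nat.card ↥(K ⊓ B) := card_lt_of_lt h2
  obtain ⟨k, hk⟩ := h3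
  have h5 : 0 < Nat.card A := Nat.card_pos
  have h6 : 2 ≤ k := by
    by_contra h
    have : k ≤ 1 := by omega
    rw [hk] at h4
    nlinarith
  have h7 : Nat.card B ≤ Nat.card ↥(K ⊓ B) := by rw [hc, hk]; nlinarith
  have h8 : K ⊓ B = B := Subgroup.eq_of_le_of_card_ge inf_le_right h7
  rw [← h8]
  exact inf_le_left

theorem ucs_lt (hT : IsPGroup 2 T) {n : ℕ} (h : Subgroup.upperCentralSeries T n ≠ ⊤) :
    Subgroup.upperCentralSeries T n < Subgroup.upperCentralSeries T (n + 1) := by
  obtain ⟨x, -, hx1, hx2⟩ := exists_central hT (N := Subgroup.upperCentralSeries T n) (M := ⊤)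
    (lt_top_iff_ne_top.2 h)
  refine lt_of_le_of_ne (Subgroup.upperCentralSeries_mono T (Nat.le_succ n)) (fun h => hx1 ?_)
  rw [h]
  exact Subgroup.mem_upperCentralSeries_succ_iff.2 hx2

theorem ucs_card (hT : IsPGroup 2 T) (ha : 2 ^ 14 ≤ Nat.card T)
    (hb : Nat.card (Subgroup.upperCentralSeries T 4) = 16) :
    Nat.card (Subgroup.upperCentralSeries T 1) = 2 ∧ Nat.card (Subgroup.upperCentralSeries T 2) = 4 ∧
      Nat.card (Subgroup.upperCentralSeries T 3) = 8 := by
  have hlt : ∀ n ≤ 3, 2 * Nat.card (Subgroup.upperCentralSeries T n) ≤ Nat.card (Subgroup.upperCentralSeries T (n + 1)) := by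
    intro n hn
    have hnt : Subgroup.upperCentralSeries T n ≠ ⊤ := by
      intro h
      have h1 : Subgroup.upperCentralSeries T n ≤ Subgroup.upperCentralSeries T 4 := Subgroup.upperCentralSeries_mono T (by omega)
      have h2 : Nat.card (Subgroup.upperCentralSeries T n) ≤ 16 := by
        rw [← hb]; exact Nat.le_of_dvd Nat.card_pos (Subgroup.card_dvd_of_le h1)
      rw [h, Subgroup.card_top] at h2
      omega
    have h1 := ucs_lt hT hnt
    have h3 : Nat.card (Subgroup.upperCentralSeries T n) ∣ Nat.card (Subgroup.upperCentralSeries T (n + 1)) :=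
      Subgroup.card_dvd_of_le h1.le
    have h4 := card_lt_of_lt h1
    obtain ⟨k, hk⟩ := h3
    have h5 : 0 < Nat.card (Subgroup.upperCentralSeries T n) := Nat.card_pos
    have h6 : 2 ≤ k := by
      by_contra h
      have : k ≤ 1 := by omega
      rw [hk] at h4
      nlinarith
    rw [hk]; nlinarith
  have h0 : Nat.card (Subgroup.upperCentralSeries T 0) = 1 := by
    rw [Subgroup.upperCentralSeries_zero]; exact Subgroup.card_bot
  have h1 := hlt 0 (by omega)
  have h2 := hlt 1 (by omega)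
  have h3 := hlt 2 (by omega)
  have h4 := hlt 3 (by omega)
  simp only [zero_add] at h1
  simp only [Nat.reduceAdd] at h2 h3 h4
  omega

/-- normal subgroups of order at most 8 -/
theorem normal_small (hT : IsPGroup 2 T) (hb : Nat.card (Subgroup.upperCentralSeries T 4) = 16)
    (hc : Nat.card (Subgroup.upperCentralSeries T 1) = 2 ∧ Nat.card (Subgroup.upperCentralSeries T 2) = 4 ∧
      Nat.card (Subgroup.upperCentralSeries T 3) = 8) {M : Subgroup T} [hM : M.Normal] (h8 : Nat.card M ≤ 8) :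
    ∃ i ≤ 3, M = Subgroup.upperCentralSeries T i := by
  have hstep : ∀ i ≤ 3, Subgroup.upperCentralSeries T i ≤ M → M = Subgroup.upperCentralSeries T i ∨
      Subgroup.upperCentralSeries T (i + 1) ≤ M := by
    intro i hi hle
    rcases eq_or_lt_of_le hle with h | h
    · exact Or.inl h.symm
    · right
      obtain ⟨x, hx, hx1, hx2⟩ := exists_central hT h
      refine step (Subgroup.upperCentralSeries_mono T (Nat.le_succ i)) ?_ hle
        (Subgroup.mem_upperCentralSeries_succ_iff.2 hx2) hx hx1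
      interval_cases i
      · simp only [zero_add]
        rw [hc.1, Subgroup.upperCentralSeries_zero]; simp
      · rw [hc.1]; exact hc.2.1
      · rw [hc.2.1]; exact hc.2.2
      · rw [hc.2.2]; exact hb
  have h0 : Subgroup.upperCentralSeries T 0 ≤ M := by rw [Subgroup.upperCentralSeries_zero]; exact bot_le
  rcases hstep 0 (by omega) h0 with h | h1
  · exact ⟨0, by omega, h⟩
  rcases hstep 1 (by omega) h1 with h | h2
  · exact ⟨1, by omega, h⟩
  rcases hstep 2 (by omega) h2 with h | h3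
  · exact ⟨2, by omega, h⟩
  rcases hstep 3 (by omega) h3 with h | h4
  · exact ⟨3, by omega, h⟩
  exfalso
  have h5 : Nat.card (Subgroup.upperCentralSeries T 4) ≤ Nat.card M :=
    Nat.le_of_dvd Nat.card_pos (Subgroup.card_dvd_of_le h4)
  omega

theorem ucs_step (hb : Nat.card (Subgroup.upperCentralSeries T 4) = 16)
    (hc : Nat.card (Subgroup.upperCentralSeries T 1) = 2 ∧ Nat.card (Subgroup.upperCentralSeries T 2) = 4 ∧
      Nat.card (Subgroup.upperCentralSeries T 3) = 8) {i : ℕ} (hi : i ≤ 3) {K : Subgroup T}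
    (hle : Subgroup.upperCentralSeries T i ≤ K) {x : T} (hx : x ∈ Subgroup.upperCentralSeries T (i + 1))
    (hxK : x ∈ K) (hx1 : x ∉ Subgroup.upperCentralSeries T i) : Subgroup.upperCentralSeries T (i + 1) ≤ K := by
  refine step (Subgroup.upperCentralSeries_mono T (Nat.le_succ i)) ?_ hle hx hxK hx1
  interval_cases i
  · simp only [zero_add]
    rw [hc.1, Subgroup.upperCentralSeries_zero]; simp
  · rw [hc.1]; exact hc.2.1
  · rw [hc.2.1]; exact hc.2.2
  · rw [hc.2.2]; exact hb

theorem index_W (hb : Nat.card (Subgroup.upperCentralSeries T 4) = 16)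
    (hc : Nat.card (Subgroup.upperCentralSeries T 1) = 2 ∧ Nat.card (Subgroup.upperCentralSeries T 2) = 4 ∧
      Nat.card (Subgroup.upperCentralSeries T 3) = 8) :
    (Subgroup.centralizer ((Subgroup.upperCentralSeries T 3 : Subgroup T) : Set T)).index ≤ 8 := by
  have hex : ∀ i, Nat.card (Subgroup.upperCentralSeries T i) < Nat.card (Subgroup.upperCentralSeries T (i + 1)) →
      ∃ x ∈ Subgroup.upperCentralSeries T (i + 1), x ∉ Subgroup.upperCentralSeries T i := by
    intro i hlt
    by_contra h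
    push Not at h
    have h1 : Subgroup.upperCentralSeries T (i + 1) ≤ Subgroup.upperCentralSeries T i := h
    have := Nat.le_of_dvd Nat.card_pos (Subgroup.card_dvd_of_le h1)
    omega
  obtain ⟨a, ha, ha1⟩ := hex 1 (by rw [hc.1, hc.2.1]; norm_num)
  obtain ⟨b, hb', hb1⟩ := hex 2 (by rw [hc.2.1, hc.2.2]; norm_num)
  have hcom : ∀ (i : ℕ) (x t : T), x ∈ Subgroup.upperCentralSeries T (i + 1) →
      x⁻¹ * (t * x * t⁻¹) ∈ Subgroup.upperCentralSeries T i := by
    intro i x t hx
    have h1 := Subgroup.mem_upperCentralSeries_succ_iff.1 ((Subgroup.upperCentralSeries T (i + 1)).inv_mem hx) t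
    rw [commutatorElement_def, inv_inv] at h1
    have h2 : x⁻¹ * (t * x * t⁻¹) = x⁻¹ * t * x * t⁻¹ := by group
    rw [h2]; exact h1
  let f : T ⧸ Subgroup.centralizer ((Subgroup.upperCentralSeries T 3 : Subgroup T) : Set T) →
      (Subgroup.upperCentralSeries T 1) × (Subgroup.upperCentralSeries T 2) := fun q =>
    (⟨a⁻¹ * (q.out * a * q.out⁻¹), hcom 1 a q.out ha⟩, ⟨b⁻¹ * (q.out * b * q.out⁻¹), hcom 2 b q.out hb'⟩)
  have hf : Function.Injective f := by
    intro q r hqr
    have h1 : a⁻¹ * (q.out * a * q.out⁻¹) = a⁻¹ * (r.out * a * r.out⁻¹) :=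
      congrArg Subtype.val (congrArg Prod.fst hqr)
    have h2 : b⁻¹ * (q.out * b * q.out⁻¹) = b⁻¹ * (r.out * b * r.out⁻¹) :=
      congrArg Subtype.val (congrArg Prod.snd hqr)
    have h3 : ∀ s t x : T, x⁻¹ * (s * x * s⁻¹) = x⁻¹ * (t * x * t⁻¹) →
        x * (s⁻¹ * t) = (s⁻¹ * t) * x := by
      intro s t x h
      have h4 := mul_left_cancel h
      calc x * (s⁻¹ * t) = s⁻¹ * (s * x * s⁻¹) * t := by group
        _ = s⁻¹ * (t * x * t⁻¹) * t := by rw [h4]
        _ = (s⁻¹ * t) * x := by group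
    have h4 := h3 _ _ _ h1
    have h5 := h3 _ _ _ h2
    set g := (Quotient.out q)⁻¹ * Quotient.out r with hg
    have h6 : Subgroup.upperCentralSeries T 1 ≤ Subgroup.centralizer {g} := by
      rw [Subgroup.upperCentralSeries_one]
      exact Subgroup.center_le_centralizer _
    have h7 : Subgroup.upperCentralSeries T 2 ≤ Subgroup.centralizer {g} :=
      ucs_step hb hc (i := 1) (by omega) h6 ha (Subgroup.mem_centralizer_singleton_iff.2 h4) ha1
    have h8 : Subgroup.upperCentralSeries T 3 ≤ Subgroup.centralizer {g} :=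
      ucs_step hb hc (i := 2) (by omega) h7 hb' (Subgroup.mem_centralizer_singleton_iff.2 h5) hb1
    have h9 : g ∈ Subgroup.centralizer ((Subgroup.upperCentralSeries T 3 : Subgroup T) : Set T) := by
      rw [Subgroup.mem_centralizer_iff]
      intro z hz
      exact Subgroup.mem_centralizer_singleton_iff.1 (h8 hz)
    rw [← Quotient.out_eq' q, ← Quotient.out_eq' r]
    exact QuotientGroup.eq.2 h9
  calc (Subgroup.centralizer ((Subgroup.upperCentralSeries T 3 : Subgroup T) : Set T)).index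
      = Nat.card (T ⧸ Subgroup.centralizer ((Subgroup.upperCentralSeries T 3 : Subgroup T) : Set T)) := rfl
    _ ≤ Nat.card ((Subgroup.upperCentralSeries T 1) × (Subgroup.upperCentralSeries T 2)) := Nat.card_le_card_of_injective f hf
    _ = 8 := by rw [Nat.card_prod, hc.1, hc.2.1]

end

end Cfsg.Agent.H2.ST
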