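import Mathlib
import Cfsg.Agent.H2_ST1

set_option autoImplicit false

namespace Cfsg.Agent.H2.ST

universe u

section
variable {T : Type u} [Group T] [Finite T]

open scoped commutatorElement

theorem phi_eq (hT : IsPGroup 2 T) (ha : 2 ^ 14 ≤ Nat.card T)
    (hb : Nat.card (Subgroup.upperCentralSeries T 4) = 16) {W : Subgroup T}
    (hW : W = Subgroup.centralizer ((Subgroup.upperCentralSeries T 3 : Subgroup T) : Set T))
    (hc : Nat.card (frattini ↥W) ≤ 8) :
    (frattini ↥W).map W.subtype = Subgroup.upperCentralSeries T 3 := by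
  haveI : Fact (Nat.Prime 2) := ⟨Nat.prime_two⟩
  have hcard := ucs_card hT ha hb
  have hWn : W.Normal := by rw [hW]; exact Subgroup.normal_centralizer
  have hWi : W.index ≤ 8 := by rw [hW]; exact index_W hb hcard
  have hWp : IsPGroup 2 W := hT.to_subgroup W
  have hWT : Nat.card W * W.index = Nat.card T := Subgroup.card_mul_index W
  have hΦn : ((frattini ↥W).map W.subtype).Normal := inferInstance
  have hΦc : Nat.card ((frattini ↥W).map W.subtype) ≤ 8 := by
    rw [Nat.card_congr ((frattini ↥W).equivMapOfInjective W.subtype W.subtype_injective).toEquiv.symm]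
    exact hc
  have hΦW' : (frattini ↥W).map W.subtype ≤ W := by
    rintro _ ⟨x, _, rfl⟩; exact x.2
  have hΦdef : ∀ x : ↥W, (x : T) ∈ (frattini ↥W).map W.subtype → x ∈ frattini ↥W := by
    rintro x ⟨y, hy, hyx⟩
    have : y = x := Subtype.ext hyx
    rw [← this]; exact hy
  have hΦH' : ∀ M : Subgroup ↥W, IsCoatom M → (frattini ↥W).map W.subtype ≤ M.map W.subtype :=
    fun M hM => Subgroup.map_mono (frattini_le_coatom hM)
  generalize hΦe : (frattini ↥W).map W.subtype = Φ at *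
  obtain ⟨i, hi, hΦi⟩ := normal_small hT hb hcard hΦc
  have hWc : 8 < Nat.card W := by
    by_contra h
    have h1 : Nat.card W ≤ 8 := by omega
    have h2 : Nat.card W * W.index ≤ 8 * 8 := Nat.mul_le_mul h1 hWi
    omega
  have hΦW : Φ < W := by
    refine lt_of_le_of_ne hΦW' (fun h => ?_)
    rw [h] at hΦc
    omega
  obtain ⟨x0, hx0W, hx0Φ, hx0c⟩ := exists_central hT hΦW
  have hx0Z : x0 ∈ Subgroup.upperCentralSeries T (i + 1) :=
    Subgroup.mem_upperCentralSeries_succ_iff.2 (by rw [← hΦi]; exact hx0c)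
  have hx0f : (⟨x0, hx0W⟩ : W) ∉ frattini W := fun h => hx0Φ (by rw [← hΦe]; exact ⟨_, h, rfl⟩)
  rw [Cfsg.Agent.H1.Nilp.mem_frattini_iff] at hx0f
  push Not at hx0f
  obtain ⟨M, hM, hx0M⟩ := hx0f
  obtain ⟨hMn, hMi⟩ := Cfsg.Agent.H1.Nilp.index_eq_of_isCoatom_pgroup hWp hM
  have hΦH : Φ ≤ M.map W.subtype := hΦH' M hM
  have hHW : (M.map W.subtype).relIndex W = 2 := by
    have h1 : (M.map W.subtype).subgroupOf W = M := Subgroup.comap_map_eq_self_of_injective W.subtype_injective M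
    rw [Subgroup.relIndex, h1, hMi]
  have hHn : ∀ w ∈ W, ∀ x ∈ M.map W.subtype, w * x * w⁻¹ ∈ M.map W.subtype := by
    rintro w hw _ ⟨x, hx, rfl⟩
    exact ⟨⟨w, hw⟩ * x * ⟨w, hw⟩⁻¹, hMn.conj_mem x hx _, rfl⟩
  have hx0H : x0 ∉ M.map W.subtype := by
    rintro ⟨y, hy, hyx⟩
    apply hx0M
    have : y = ⟨x0, hx0W⟩ := Subtype.ext hyx
    rw [← this]; exact hy
  generalize M.map W.subtype = H at *
  have hcore : H.normalCore ≤ Φ := by
    have hle : Φ ≤ H.normalCore := by
      intro x hx t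
      exact hΦH (hΦn.conj_mem x hx t)
    by_contra hcon
    have hlt : Φ < H.normalCore := lt_of_le_not_ge hle hcon
    obtain ⟨x, hx, hx1, hx2⟩ := exists_central hT hlt
    have h1 : Subgroup.upperCentralSeries T (i + 1) ≤ H.normalCore :=
      ucs_step hb hcard hi (by rw [← hΦi]; exact hle)
        (Subgroup.mem_upperCentralSeries_succ_iff.2 (by rw [← hΦi]; exact hx2)) hx
        (by rw [← hΦi]; exact hx1)
    exact hx0H (Subgroup.normalCore_le H (h1 hx0Z))
  have hbound : H.normalCore.relIndex W ≤ 2 ^ W.index := by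
    let f : T ⧸ W → Subgroup T := fun q => H.map (MulAut.conj q.out).toMonoidHom
    have h1 : (⨅ q, f q) ≤ H.normalCore := by
      intro x hx t
      rw [Subgroup.mem_iInf] at hx
      obtain ⟨y, hy, hyx⟩ := hx (QuotientGroup.mk t⁻¹)
      have hyx' : (Quotient.out (QuotientGroup.mk t⁻¹ : T ⧸ W)) * y *
          (Quotient.out (QuotientGroup.mk t⁻¹ : T ⧸ W))⁻¹ = x := hyx
      obtain ⟨w, hw⟩ := QuotientGroup.mk_out_eq_mul W t⁻¹
      rw [hw] at hyx'
      have h2 : t * x * t⁻¹ = w * y * (w : T)⁻¹ := by rw [← hyx']; group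
      rw [h2]
      exact hHn w w.2 y hy
    letI := Fintype.ofFinite (T ⧸ W)
    calc H.normalCore.relIndex W ≤ (⨅ q, f q).relIndex W :=
          Subgroup.relIndex_le_of_le_left h1 Subgroup.index_ne_zero_of_finite
      _ ≤ ∏ q, (f q).relIndex W := Subgroup.relIndex_iInf_le f
      _ = ∏ q : T ⧸ W, 2 := Finset.prod_congr rfl (fun q _ => by
          have h2 : W.map (MulAut.conj q.out).toMonoidHom = W := by
            apply le_antisymm
            · rintro _ ⟨y, hy, rfl⟩
              exact hWn.conj_mem y hy _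
            · intro y hy
              refine ⟨q.out⁻¹ * y * q.out, by simpa using hWn.conj_mem y hy q.out⁻¹, ?_⟩
              show q.out * (q.out⁻¹ * y * q.out) * q.out⁻¹ = y
              group
          rw [← hHW]
          nth_rewrite 1 [← h2]
          exact Subgroup.relIndex_map_map_of_injective H W (MulAut.conj q.out).injective)
      _ = 2 ^ W.index := by
          rw [Finset.prod_const, Finset.card_univ, ← Nat.card_eq_fintype_card]; rfl
  have hrel : Φ.relIndex W ≤ 2 ^ W.index :=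
    (Subgroup.relIndex_le_of_le_left hcore Subgroup.index_ne_zero_of_finite).trans hbound
  have hcW : Nat.card Φ * Φ.relIndex W = Nat.card W := by
    have h5 := Subgroup.relIndex_mul_relIndex ⊥ Φ W bot_le hΦW.le
    rwa [Subgroup.relIndex_bot_left, Subgroup.relIndex_bot_left] at h5
  have h256 : 2 ^ W.index ≤ 2 ^ 8 := Nat.pow_le_pow_right (by norm_num) hWi
  have h8 : 8 ≤ Nat.card Φ := by
    by_contra h
    have h1 : Nat.card Φ ≤ 7 := by omega
    have h2 : Nat.card W ≤ 7 * 2 ^ 8 := by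
      rw [← hcW]; exact Nat.mul_le_mul h1 (hrel.trans h256)
    have h3 : Nat.card T ≤ 7 * 2 ^ 8 * 8 := by
      rw [← hWT]; exact Nat.mul_le_mul h2 hWi
    omega
  rw [hΦi] at h8 ⊢
  have h0 : Nat.card (Subgroup.upperCentralSeries T 0) = 1 := by
    rw [Subgroup.upperCentralSeries_zero]; exact Subgroup.card_bot
  interval_cases i
  · omega
  · omega
  · omega
  · rfl

theorem unip (hT : IsPGroup 2 T) {φ : MulAut T} {x c : T} (h1 : φ x = x * c) (h2 : φ c = c)
    (ho : Odd (orderOf φ)) : c = 1 := by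
  have h3 : ∀ n : ℕ, (φ ^ n) x = x * c ^ n := by
    intro n
    induction n with
    | zero => simp
    | succ n ih =>
      rw [pow_succ', MulAut.mul_apply, ih, map_mul, map_pow, h1, h2, mul_assoc, ← pow_succ']
  have h4 := h3 (orderOf φ)
  rw [pow_orderOf_eq_one, MulAut.one_apply] at h4
  have h5 : c ^ orderOf φ = 1 := (mul_eq_left.1 h4.symm)
  obtain ⟨k, hk⟩ := hT c
  have h6 : orderOf c ∣ orderOf φ := orderOf_dvd_of_pow_eq_one h5
  have h7 : orderOf c ∣ 2 ^ k := orderOf_dvd_of_pow_eq_one hk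
  have h8 : (orderOf φ).Coprime (2 ^ k) := Nat.Coprime.pow_right _ ((Nat.coprime_two_right).2 ho)
  exact orderOf_eq_one_iff.1 (Nat.eq_one_of_dvd_coprimes h8 h6 h7)

theorem diff_mem {A B : Subgroup T} (hAB : A ≤ B) (hc : Nat.card B = 2 * Nat.card A) {x y : T}
    (hx : x ∈ B) (hy : y ∈ B) (hx1 : x ∉ A) (hy1 : y ∉ A) : x⁻¹ * y ∈ A := by
  have h1 : (A.subgroupOf B).index = 2 := by
    have h5 := Subgroup.relIndex_mul_relIndex ⊥ A B bot_le hAB
    rw [Subgroup.relIndex_bot_left, Subgroup.relIndex_bot_left, hc, mul_comm] at h5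
    exact Nat.eq_of_mul_eq_mul_right Nat.card_pos h5
  have h2 := (Subgroup.mul_mem_iff_of_index_two h1 (a := ⟨x, hx⟩⁻¹) (b := ⟨y, hy⟩))
  have h3 : (⟨x, hx⟩⁻¹ * ⟨y, hy⟩ : ↥B) ∈ A.subgroupOf B := by
    rw [h2, Subgroup.inv_mem_iff]
    exact ⟨fun h => absurd h hx1, fun h => absurd h hy1⟩
  exact h3

theorem aut_trivial (hT : IsPGroup 2 T) (ha : 2 ^ 14 ≤ Nat.card T)
    (hb : Nat.card (Subgroup.upperCentralSeries T 4) = 16) {W : Subgroup T}
    (hW : W = Subgroup.centralizer ((Subgroup.upperCentralSeries T 3 : Subgroup T) : Set T))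
    (hΦ : (frattini ↥W).map W.subtype = Subgroup.upperCentralSeries T 3)
    (φ : MulAut T) (ho : Odd (orderOf φ)) : φ = 1 := by
  have hcard := ucs_card hT ha hb
  have hchar : ∀ i x, φ x ∈ Subgroup.upperCentralSeries T i ↔ x ∈ Subgroup.upperCentralSeries T i := by
    intro i x
    have h1 : (Subgroup.upperCentralSeries T i).comap (φ : T ≃* T).toMonoidHom =
      Subgroup.upperCentralSeries T i := (inferInstance :
        (Subgroup.upperCentralSeries T i).Characteristic).fixed φ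
    constructor
    · intro h
      rw [← h1]; exact h
    · intro h
      rw [← h1] at h; exact h
  have hcd : ∀ i ≤ 3, Nat.card (Subgroup.upperCentralSeries T (i + 1)) =
      2 * Nat.card (Subgroup.upperCentralSeries T i) := by
    intro i hi
    interval_cases i
    · simp only [zero_add]
      rw [hcard.1, Subgroup.upperCentralSeries_zero]; simp
    · rw [hcard.1]; exact hcard.2.1
    · rw [hcard.2.1]; exact hcard.2.2
    · rw [hcard.2.2]; exact hb
  have hfix : ∀ i ≤ 4, ∀ x ∈ Subgroup.upperCentralSeries T i, φ x = x := by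
    intro i
    induction i with
    | zero =>
      intro _ x hx
      rw [Subgroup.upperCentralSeries_zero, Subgroup.mem_bot] at hx
      rw [hx, map_one]
    | succ i ih =>
      intro hi x hx
      by_cases hxi : x ∈ Subgroup.upperCentralSeries T i
      · exact ih (by omega) x hxi
      · have h1 : x⁻¹ * φ x ∈ Subgroup.upperCentralSeries T i :=
          diff_mem (Subgroup.upperCentralSeries_mono T (Nat.le_succ i)) (hcd i (by omega)) hx
            ((hchar _ _).2 hx) hxi (fun h => hxi ((hchar _ _).1 h))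
        have h2 := unip hT (φ := φ) (x := x) (c := x⁻¹ * φ x) (by group) (ih (by omega) _ h1) ho
        exact (inv_mul_eq_one.1 h2).symm
  have hZW : ∀ z ∈ Subgroup.upperCentralSeries T 3, ∀ w ∈ W, z * w = w * z := by
    intro z hz w hw
    rw [hW] at hw
    exact Subgroup.mem_centralizer_iff.1 hw z hz
  have hWm : ∀ w, (∀ z ∈ Subgroup.upperCentralSeries T 3, z * w = w * z) → w ∈ W := by
    intro w h
    rw [hW, Subgroup.mem_centralizer_iff]
    exact h
  haveI : Fact (Nat.Prime 2) := ⟨Nat.prime_two⟩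
  have hcomm : ∀ a ∈ W, ∀ b ∈ W, ⁅a, b⁆ ∈ Subgroup.upperCentralSeries T 3 := by
    intro a ha b hb
    rw [← hΦ]
    have h1 := Cfsg.Agent.H2.PGroup.commutator_le_frattini (P := ↥W) (hT.to_subgroup W)
    exact ⟨⁅⟨a, ha⟩, ⟨b, hb⟩⁆, h1 (Subgroup.commutator_mem_commutator (Subgroup.mem_top _)
      (Subgroup.mem_top _)), rfl⟩
  have hWn : W.Normal := by rw [hW]; exact Subgroup.normal_centralizer
  have hZn : (Subgroup.upperCentralSeries T 3).Normal := inferInstance
  -- φ acts trivially on T / W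
  have hTW : ∀ t : T, t⁻¹ * φ t ∈ W := by
    intro t
    apply hWm
    intro z hz
    have h1 : t * z * t⁻¹ ∈ Subgroup.upperCentralSeries T 3 := hZn.conj_mem z hz t
    have h2 := hfix 3 (by omega) _ h1
    rw [map_mul, map_mul, map_inv, hfix 3 (by omega) z hz] at h2
    -- φ t * z * (φ t)⁻¹ = t * z * t⁻¹
    calc z * (t⁻¹ * φ t) = t⁻¹ * (t * z * t⁻¹) * φ t := by group
      _ = t⁻¹ * (φ t * z * (φ t)⁻¹) * φ t := by rw [h2]
      _ = t⁻¹ * φ t * z := by group
  have hφW : ∀ w ∈ W, φ w ∈ W := by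
    intro w hw
    have h1 := W.mul_mem hw (hTW w)
    simpa using h1
  let D : Subgroup T :=
    { carrier := {x | ∃ v ∈ W, ∃ c ∈ Subgroup.upperCentralSeries T 3, x = v⁻¹ * φ v * c}
      one_mem' := ⟨1, W.one_mem, 1, Subgroup.one_mem _, by simp⟩
      mul_mem' := by
        rintro _ _ ⟨v, hv, c, hc, rfl⟩ ⟨u, hu, d, hd, rfl⟩
        have hφv := hφW v hv
        have hφu := hφW u hu
        have haW : v⁻¹ * φ v ∈ W := W.mul_mem (W.inv_mem hv) hφv
        have he : ⁅(v⁻¹ * φ v)⁻¹, u⁆ ∈ Subgroup.upperCentralSeries T 3 :=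
          hcomm _ (W.inv_mem haW) _ hu
        refine ⟨v * u, W.mul_mem hv hu, ⁅(v⁻¹ * φ v)⁻¹, u⁆ * c * d,
          Subgroup.mul_mem _ (Subgroup.mul_mem _ he hc) hd, ?_⟩
        have h1 : c * (u⁻¹ * φ u) = (u⁻¹ * φ u) * c :=
          hZW c hc _ (W.mul_mem (W.inv_mem hu) hφu)
        have h2 := hZW _ he _ hφu
        rw [map_mul]
        calc v⁻¹ * φ v * c * (u⁻¹ * φ u * d) = v⁻¹ * φ v * (c * (u⁻¹ * φ u)) * d := by group
          _ = v⁻¹ * φ v * ((u⁻¹ * φ u) * c) * d := by rw [h1]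
          _ = u⁻¹ * (v⁻¹ * φ v) * (⁅(v⁻¹ * φ v)⁻¹, u⁆ * φ u) * c * d := by
              rw [commutatorElement_def]; group
          _ = u⁻¹ * (v⁻¹ * φ v) * (φ u * ⁅(v⁻¹ * φ v)⁻¹, u⁆) * c * d := by rw [h2]
          _ = (v * u)⁻¹ * (φ v * φ u) * (⁅(v⁻¹ * φ v)⁻¹, u⁆ * c * d) := by group
      inv_mem' := by
        rintro _ ⟨v, hv, c, hc, rfl⟩
        have hφv := hφW v hv
        have he : ⁅φ v, v⁻¹⁆ ∈ Subgroup.upperCentralSeries T 3 := hcomm _ hφv _ (W.inv_mem hv)
        refine ⟨v⁻¹, W.inv_mem hv, ⁅φ v, v⁻¹⁆ * c⁻¹,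
          Subgroup.mul_mem _ he (Subgroup.inv_mem _ hc), ?_⟩
        have h1 : c⁻¹ * (φ v⁻¹ * v) = (φ v⁻¹ * v) * c⁻¹ :=
          hZW _ (Subgroup.inv_mem _ hc) _ (W.mul_mem (hφW _ (W.inv_mem hv)) hv)
        rw [map_inv] at h1 ⊢
        calc (v⁻¹ * φ v * c)⁻¹ = c⁻¹ * ((φ v)⁻¹ * v) := by group
          _ = ((φ v)⁻¹ * v) * c⁻¹ := h1
          _ = v⁻¹⁻¹ * (φ v)⁻¹ * (⁅φ v, v⁻¹⁆ * c⁻¹) := by rw [commutatorElement_def]; group }
  have hDn : D.Normal := by
    constructor
    rintro _ ⟨v, hv, c, hc, rfl⟩ t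
    have hw := hTW t
    set w := t⁻¹ * φ t with hwe
    have hφt : φ t = t * w := by rw [hwe]; group
    have hφv := hφW v hv
    have he : ⁅(φ v)⁻¹, w⁆ ∈ Subgroup.upperCentralSeries T 3 := hcomm _ (W.inv_mem hφv) _ hw
    refine ⟨t * v * t⁻¹, hWn.conj_mem v hv t, t * (⁅(φ v)⁻¹, w⁆⁻¹ * c) * t⁻¹,
      hZn.conj_mem _ (Subgroup.mul_mem _ (Subgroup.inv_mem _ he) hc) t, ?_⟩
    rw [map_mul, map_mul, map_inv, hφt, commutatorElement_def]
    group
  have hZD : Subgroup.upperCentralSeries T 3 ≤ D := fun c hc => ⟨1, W.one_mem, c, hc, by simp⟩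
  have hDZ : D = Subgroup.upperCentralSeries T 3 := by
    by_contra hne
    obtain ⟨x, hx, hx1, hx2⟩ := exists_central hT (lt_of_le_of_ne hZD (Ne.symm hne))
    have hx4 : x ∈ Subgroup.upperCentralSeries T 4 := Subgroup.mem_upperCentralSeries_succ_iff.2 hx2
    obtain ⟨v, hv, c, hc, hxe⟩ := hx
    have h1 := unip hT (φ := φ) (x := v) (c := x * c⁻¹) (by rw [hxe]; group)
      (by rw [map_mul, map_inv, hfix 4 (by omega) x hx4, hfix 3 (by omega) c hc]) ho
    apply hx1
    rw [mul_inv_eq_one.1 h1]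
    exact hc
  have hWfix : ∀ v ∈ W, φ v = v := by
    intro v hv
    have h1 : v⁻¹ * φ v ∈ Subgroup.upperCentralSeries T 3 := by
      rw [← hDZ]; exact ⟨v, hv, 1, Subgroup.one_mem _, by simp⟩
    have h2 := unip hT (φ := φ) (x := v) (c := v⁻¹ * φ v) (by group) (hfix 3 (by omega) _ h1) ho
    exact (inv_mul_eq_one.1 h2).symm
  ext t
  have h2 := unip hT (φ := φ) (x := t) (c := t⁻¹ * φ t) (by group) (hWfix _ (hTW t)) ho
  exact (inv_mul_eq_one.1 h2).symm

end

end Cfsg.Agent.H2.ST
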