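import Mathlib
import Cfsg.Agent.H2_ST2

set_option autoImplicit false

namespace Cfsg.Agent.H2.ST

universe u

section
variable {G : Type u} [Group G] [Finite G]

theorem npc (T : Sylow 2 G)
    (haut : ∀ φ : MulAut ↥(T : Subgroup G), Odd (orderOf φ) → φ = 1) :
    Cfsg.HasNormalPComplement 2 ↥(Subgroup.normalizer ((T : Subgroup G) : Set G)) := by
  haveI : Fact (Nat.Prime 2) := ⟨Nat.prime_two⟩
  have hTN : (T : Subgroup G) ≤ Subgroup.normalizer ((T : Subgroup G) : Set G) :=
    Subgroup.le_normalizer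
  let P : Sylow 2 ↥(Subgroup.normalizer ((T : Subgroup G) : Set G)) := T.subtype hTN
  have hPm : ∀ x, x ∈ (P : Subgroup ↥(Subgroup.normalizer ((T : Subgroup G) : Set G))) ↔
      (x : G) ∈ (T : Subgroup G) := fun x => Iff.rfl
  haveI hPn : (P : Subgroup ↥(Subgroup.normalizer ((T : Subgroup G) : Set G))).Normal := by
    constructor
    intro x hx g
    exact (Subgroup.mem_normalizer_iff.1 g.2 x).1 hx
  obtain ⟨K, hK⟩ := Subgroup.exists_right_complement'_of_coprime P.card_coprime_index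
  have hKc : Nat.card K = (P : Subgroup ↥(Subgroup.normalizer ((T : Subgroup G) : Set G))).index :=
    hK.symm.index_eq_card.symm
  have hKodd : Odd (Nat.card K) := by
    rw [hKc, ← Nat.not_even_iff_odd, even_iff_two_dvd]
    exact P.not_dvd_index
  have hcen : ∀ k ∈ K, ∀ t ∈ (P : Subgroup ↥(Subgroup.normalizer ((T : Subgroup G) : Set G))),
      k * t = t * k := by
    intro k hk t ht
    have h1 : Odd (orderOf ((T : Subgroup G).normalizerMonoidHom k)) := by
      apply hKodd.of_dvd_nat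
      exact (orderOf_map_dvd _ _).trans (Subgroup.orderOf_dvd_natCard K hk)
    have h2 := haut _ h1
    have h3 : k ∈ (T : Subgroup G).normalizerMonoidHom.ker := h2
    rw [Subgroup.normalizerMonoidHom_ker] at h3
    have h4 : (k : G) ∈ Subgroup.centralizer ((T : Subgroup G) : Set G) := h3
    apply Subtype.ext
    exact (Subgroup.mem_centralizer_iff.1 h4 (t : G) ht).symm
  refine ⟨P, K, ?_, hK.symm⟩
  constructor
  intro k hk g
  obtain ⟨⟨⟨p, hp⟩, ⟨k', hk'⟩⟩, h1⟩ := (hK.existsUnique g).exists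
  have h1' : p * k' = g := h1
  have h2 : k' * k * k'⁻¹ ∈ K := K.mul_mem (K.mul_mem hk' hk) (K.inv_mem hk')
  have h3 := hcen _ h2 p hp
  have h4 : g * k * g⁻¹ = k' * k * k'⁻¹ := by
    rw [← h1']
    calc p * k' * k * (p * k')⁻¹ = p * (k' * k * k'⁻¹) * p⁻¹ := by group
      _ = (k' * k * k'⁻¹) * p * p⁻¹ := by rw [← h3]
      _ = k' * k * k'⁻¹ := by group
  rw [h4]
  exact h2

theorem wcl (T : Subgroup G) (hT : IsPGroup 2 T) (W : Subgroup ↥T)
    (hi : W.index ≤ 8)
    (hΦ : (frattini ↥W).map W.subtype = Subgroup.upperCentralSeries ↥T 3)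
    (hW : W = Subgroup.centralizer ((Subgroup.upperCentralSeries ↥T 3 : Subgroup ↥T) : Set ↥T))
    (hd : ∀ U : Subgroup ↥W, U.index ≤ 16 → frattini ↥W ≤ U) :
    Cfsg.IsWeaklyClosed (W.map T.subtype) T := by
  haveI : Fact (Nat.Prime 2) := ⟨Nat.prime_two⟩
  have hWT : W.map T.subtype ≤ T := by rintro _ ⟨x, _, rfl⟩; exact x.2
  refine ⟨hWT, fun g hg => ?_⟩
  have hinj : Function.Injective (T.subtype.comp W.subtype) :=
    T.subtype_injective.comp W.subtype_injective
  have hWc : Nat.card W * W.index = Nat.card T := Subgroup.card_mul_index W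
  have key : ∀ K : Subgroup ↥W, K.index ≤ 2 → ∀ y ∈ frattini ↥W, ∃ k ∈ K,
      ((y : T) : G) = g * ((k : T) : G) * g⁻¹ := by
    intro K hK y hy
    let A : Subgroup G := (K.map (T.subtype.comp W.subtype)).map (MulAut.conj g).toMonoidHom
    have hAT : A ≤ T := by
      rintro _ ⟨_, ⟨k, hk, rfl⟩, rfl⟩
      exact hg ⟨_, ⟨(k : T), k.2, rfl⟩, rfl⟩
    have hAc : Nat.card A = Nat.card K := by
      have h1 : Nat.card (K.map (T.subtype.comp W.subtype)) = Nat.card K :=
        Nat.card_congr (K.equivMapOfInjective _ hinj).toEquiv.symm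
      rw [← h1]
      exact Nat.card_congr ((K.map (T.subtype.comp W.subtype)).equivMapOfInjective
        (MulAut.conj g).toMonoidHom (MulAut.conj g).injective).toEquiv.symm
    have hAr : A.relIndex T ≤ 16 := by
      have h5 := Subgroup.relIndex_mul_relIndex ⊥ A T bot_le hAT
      rw [Subgroup.relIndex_bot_left, Subgroup.relIndex_bot_left, hAc, ← hWc,
        ← Subgroup.card_mul_index K, mul_assoc] at h5
      have h6 : A.relIndex T = K.index * W.index := Nat.eq_of_mul_eq_mul_left Nat.card_pos h5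
      rw [h6]
      calc K.index * W.index ≤ 2 * 8 := Nat.mul_le_mul hK hi
        _ = 16 := by norm_num
    have hU : (A.comap (T.subtype.comp W.subtype)).index ≤ 16 := by
      rw [Subgroup.index_comap]
      refine le_trans (Subgroup.relIndex_le_of_le_right ?_ Subgroup.index_ne_zero_of_finite) hAr
      rintro _ ⟨x, rfl⟩
      exact (x : T).2
    obtain ⟨_, ⟨k, hk, rfl⟩, hk2⟩ := hd _ hU hy
    exact ⟨k, hk, hk2.symm⟩
  -- Φ is mapped into itself
  have hA : ∀ y ∈ frattini ↥W, ∃ k ∈ frattini ↥W, ((y : T) : G) = g * ((k : T) : G) * g⁻¹ := by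
    intro y hy
    obtain ⟨k, -, hk⟩ := key ⊤ (by rw [Subgroup.index_top]; norm_num) y hy
    refine ⟨k, ?_, hk⟩
    rw [Cfsg.Agent.H1.Nilp.mem_frattini_iff]
    intro M hM
    obtain ⟨-, hMi⟩ := Cfsg.Agent.H1.Nilp.index_eq_of_isCoatom_pgroup (hT.to_subgroup W) hM
    obtain ⟨k', hk', hk2⟩ := key M (by rw [hMi]) y hy
    rw [hk] at hk2
    have h1 : ((k : T) : G) = ((k' : T) : G) := by
      have h2 := mul_right_cancel hk2
      exact mul_left_cancel h2
    have h2 : k = k' := Subtype.ext (Subtype.ext h1)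
    rw [h2]; exact hk'
  have hZW : ∀ z ∈ Subgroup.upperCentralSeries ↥T 3, ∀ w ∈ W, z * w = w * z := by
    intro z hz w hw
    rw [hW] at hw
    exact Subgroup.mem_centralizer_iff.1 hw z hz
  have hle : (W.map T.subtype).map (MulAut.conj g).toMonoidHom ≤ W.map T.subtype := by
    intro x hx
    have hxT : x ∈ T := hg hx
    obtain ⟨_, ⟨w, hw, rfl⟩, hwx⟩ := hx
    have hwx' : g * (w : G) * g⁻¹ = x := hwx
    refine ⟨⟨x, hxT⟩, ?_, rfl⟩
    rw [hW]
    apply Subgroup.mem_centralizer_iff.2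
    intro z hz
    have hz' : z ∈ (frattini ↥W).map W.subtype := by rw [hΦ]; exact hz
    obtain ⟨y, hy, rfl⟩ := hz'
    obtain ⟨k, hk, hk2⟩ := hA y hy
    have h1 : (k : T) * w = w * (k : T) := by
      apply hZW _ _ w hw
      rw [← hΦ]
      exact ⟨k, hk, rfl⟩
    have h1' : ((k : T) : G) * (w : G) = (w : G) * ((k : T) : G) := congrArg Subtype.val h1
    apply Subtype.ext
    show ((y : T) : G) * x = x * ((y : T) : G)
    rw [hk2, ← hwx']
    calc g * ((k : T) : G) * g⁻¹ * (g * (w : G) * g⁻¹) = g * (((k : T) : G) * (w : G)) * g⁻¹ := by group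
      _ = g * ((w : G) * ((k : T) : G)) * g⁻¹ := by rw [h1']
      _ = g * (w : G) * g⁻¹ * (g * ((k : T) : G) * g⁻¹) := by group
  apply Subgroup.eq_of_le_of_card_ge hle
  exact le_of_eq (Nat.card_congr ((W.map T.subtype).equivMapOfInjective
    (MulAut.conj g).toMonoidHom (MulAut.conj g).injective).toEquiv)

end

end Cfsg.Agent.H2.ST
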