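import Mathlib
import Cfsg.Prelude
import Cfsg.Agent.H9_FrobKer
import Cfsg.Agent.H1_Frob
import Cfsg.Agent.H1_Basic

/-! Weakly closed elements of Sylow subgroups centralizing the `p'`-subgroups they normalize. -/

set_option autoImplicit false
set_option linter.unusedSectionVars false
set_option linter.style.haveILetI false

open Subgroup Cfsg
open scoped commutatorElement Pointwise

universe u

namespace Cfsg.Agent.H2.WC1

variable {G : Type u} [Group G] [Finite G] {p : ℕ} [hp : Fact p.Prime]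

structure Hyp {G : Type u} [Group G] (p : ℕ) (x : G) : Prop where
  pel : IsPGroup p (zpowers x)
  wc : ∀ g : G, ∀ T : Subgroup G, IsPGroup p T → x ∈ T → g⁻¹ * x * g ∈ T → g⁻¹ * x * g = x
  b : ∀ H : Subgroup G, (Nat.card H).Coprime p → (∀ h ∈ H, x * h * x⁻¹ ∈ H) → ∀ h ∈ H, x * h = h * x

theorem Hyp.restrict {x : G} (h : Hyp p x) (K : Subgroup G) (hx : x ∈ K) : Hyp p (⟨x, hx⟩ : K) := by
  refine ⟨?_, ?_, ?_⟩
  · have h1 : (zpowers (⟨x, hx⟩ : K)).map K.subtype = zpowers x := by
      rw [MonoidHom.map_zpowers]; rfl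
    have h2 := h.pel
    rw [← h1] at h2
    exact (h2.of_injective (((zpowers (⟨x, hx⟩ : K)).equivMapOfInjective K.subtype K.subtype_injective).toMonoidHom)
      (MulEquiv.injective _))
  · intro g T hT hxT hgT
    have h1 := h.wc g (T.map K.subtype) (hT.map _) ⟨_, hxT, rfl⟩ ⟨_, hgT, rfl⟩
    exact Subtype.ext h1
  · intro H hH hn k hk
    have h1 := h.b (H.map K.subtype) (by
      rw [← Nat.card_congr (H.equivMapOfInjective K.subtype K.subtype_injective).toEquiv]; exact hH) (by
      rintro _ ⟨k, hk, rfl⟩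
      exact ⟨_, hn k hk, rfl⟩) k ⟨k, hk, rfl⟩
    exact Subtype.ext h1

theorem Hyp.comm_conj {x : G} (h : Hyp p x) {g : G} (hg : g⁻¹ * x * g ∈ centralizer ({x} : Set G)) :
    g ∈ centralizer ({x} : Set G) := by
  rw [mem_centralizer_singleton_iff] at hg
  have h1 : zpowers (g⁻¹ * x * g) ≤ normalizer ((zpowers x : Subgroup G) : Set G) := by
    rw [zpowers_le]
    refine (Subgroup.centralizer_le_normalizer ((zpowers x : Subgroup G) : Set G)) ?_
    rw [mem_centralizer_iff]
    intro y hy
    obtain ⟨n, rfl⟩ := mem_zpowers_iff.1 hy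
    exact ((show Commute (g⁻¹ * x * g) x from hg).zpow_right n).eq.symm
  have h2 : IsPGroup p (zpowers (g⁻¹ * x * g)) := by
    have e : zpowers (g⁻¹ * x * g) = (zpowers x).map (MulAut.conj g⁻¹).toMonoidHom := by
      rw [MonoidHom.map_zpowers]
      congr 1
      simp
    rw [e]
    exact h.pel.map _
  have h3 : IsPGroup p (zpowers x ⊔ zpowers (g⁻¹ * x * g) : Subgroup G) := h.pel.to_sup_of_normal_left' h2 h1
  have h4 := h.wc g _ h3 ((le_sup_left : zpowers x ≤ _) (mem_zpowers _)) ((le_sup_right : zpowers (g⁻¹ * x * g) ≤ _) (mem_zpowers _))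
  rw [mem_centralizer_singleton_iff]
  have := congrArg (fun z => g * z) h4
  simpa [mul_assoc] using this.symm

theorem main_aux (n : ℕ) : ∀ (G : Type u) [Group G] [Finite G], Nat.card G = n → ∀ x : G, Hyp p x → x ∈ center G := by
  induction n using Nat.strong_induction_on with
  | _ n ih =>
  intro G _ _ hn x h
  by_contra hxc
  set M := centralizer ({x} : Set G) with hM
  have hxM : x ∈ M := mem_centralizer_singleton_iff.2 rfl
  have hMtop : M ≠ ⊤ := by
    intro ht
    apply hxc
    rw [mem_center_iff]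
    intro g
    have : g ∈ M := by rw [ht]; exact mem_top g
    exact mem_centralizer_singleton_iff.1 this
  -- `M` is the unique maximal subgroup containing `x`
  have huniq : ∀ K : Subgroup G, K ≠ ⊤ → x ∈ K → K ≤ M := by
    intro K hK hxK k hk
    have hlt : Nat.card K < n := by
      rw [← hn]
      refine lt_of_le_of_ne (Subgroup.card_le_card_group K) ?_
      intro he
      exact hK (Subgroup.eq_top_of_card_eq K he)
    have h1 := ih _ hlt K rfl ⟨x, hxK⟩ (h.restrict K hxK)
    rw [mem_center_iff] at h1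
    exact mem_centralizer_singleton_iff.2 (congrArg Subtype.val (h1 ⟨k, hk⟩))
  have hZM : center G ≤ M := by
    intro z hz
    exact mem_centralizer_singleton_iff.2 (mem_center_iff.1 hz x).symm
  have hTI : ∀ g : G, g ∉ M → ∀ y ∈ M, g⁻¹ * y * g ∈ M → y ∈ center G := by
    intro g hg y hy hgy
    by_contra hyc
    have hC : centralizer ({y} : Set G) ≠ ⊤ := by
      intro ht
      apply hyc
      rw [mem_center_iff]
      intro k
      have : k ∈ centralizer ({y} : Set G) := by rw [ht]; exact mem_top k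
      exact mem_centralizer_singleton_iff.1 this
    have h1 := huniq _ hC (mem_centralizer_singleton_iff.2 (mem_centralizer_singleton_iff.1 hy).symm)
    have h2 : g * x * g⁻¹ ∈ centralizer ({y} : Set G) := by
      rw [mem_centralizer_singleton_iff]
      have h3 := mem_centralizer_singleton_iff.1 hgy
      have h4 := congrArg (fun z => g * z * g⁻¹) h3
      simp only [mul_assoc, mul_inv_cancel_left, inv_mul_cancel_left, mul_inv_cancel, mul_one] at h4 ⊢
      exact h4.symm
    have h3 : g⁻¹ ∈ M := by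
      apply h.comm_conj
      rw [inv_inv]
      exact h1 h2
    exact hg (inv_mem_iff.1 h3)
  set Z := center G with hZ
  set π := QuotientGroup.mk' Z with hπ
  have hsurj : Function.Surjective π := QuotientGroup.mk'_surjective Z
  have hker : ∀ g : G, π g = 1 ↔ g ∈ Z := fun g => QuotientGroup.eq_one_iff g
  set M' := M.map π with hM'
  have hcM : M'.comap π = M := by
    rw [hM', comap_map_eq, QuotientGroup.ker_mk']; exact sup_eq_left.2 hZM
  have hfrob : Cfsg.IsFrobeniusComplement M' := by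
    refine ⟨?_, ?_, ?_⟩
    · intro hb
      have : π x ∈ M' := mem_map_of_mem π hxM
      rw [hb, mem_bot, hker] at this
      exact hxc this
    · intro ht
      apply hMtop
      rw [← hcM, ht, comap_top]
    · intro g' hg'
      obtain ⟨g, rfl⟩ := hsurj g'
      rw [eq_bot_iff]
      rintro y' ⟨hy1, hy2⟩
      obtain ⟨y, rfl⟩ := hsurj y'
      have hy : y ∈ M := by rw [← hcM]; exact hy1
      have hg : g ∉ M := fun hg => hg' (mem_map_of_mem π hg)
      have h2 : g⁻¹ * y * g ∈ M := by
        rw [← hcM, mem_comap]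
        have h3 := H1.Basic.mem_conj.1 hy2
        rw [map_mul, map_mul, map_inv]
        exact h3
      rw [mem_bot, hker]
      exact hTI g hg y hy h2
  obtain ⟨N', hN'k, hN'n, hcompl⟩ := H9.FrobKer.frobenius M' hfrob
  set N := N'.comap π with hN
  haveI : N.Normal := by rw [hN]; infer_instance
  have hZN : Z ≤ N := by
    intro z hz
    rw [hN, mem_comap, (hker z).2 hz]; exact one_mem _
  have hNM : N ⊓ M = Z := by
    apply le_antisymm
    · rintro y ⟨hy1, hy2⟩
      rw [← hker]
      have h1 : π y ∈ N' ⊓ M' := ⟨hy1, mem_map_of_mem π hy2⟩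
      rw [hcompl.disjoint.eq_bot] at h1
      exact h1
    · exact le_inf hZN hZM
  -- orders
  have hpN' : ¬ p ∣ Nat.card N' := by
    intro hd
    have h1 : Nat.card N' = M'.index := hcompl.index_eq_card.symm
    have h2 := H1.Frob.index_mod_card hfrob
    have h3 : p ∣ Nat.card M' := by
      have h4 : π x ≠ 1 := fun hh => hxc ((hker x).1 hh)
      obtain ⟨k, hk⟩ := h.pel ⟨x, mem_zpowers x⟩
      have h5 : (π x) ^ p ^ k = 1 := by
        rw [← map_pow]
        have : x ^ p ^ k = 1 := congrArg Subtype.val hk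
        rw [this, map_one]
      have h6 : orderOf (π x) ∣ p ^ k := orderOf_dvd_of_pow_eq_one h5
      obtain ⟨j, hj, hj'⟩ := (Nat.dvd_prime_pow hp.out).1 h6
      have h7 : j ≠ 0 := by
        rintro rfl
        rw [pow_zero] at hj'
        exact h4 (orderOf_eq_one_iff.1 hj')
      have h8 : p ∣ orderOf (π x) := by rw [hj']; exact dvd_pow_self p h7
      have h9 : orderOf (⟨π x, mem_map_of_mem π hxM⟩ : M') ∣ Nat.card M' := orderOf_dvd_natCard _
      rw [Subgroup.orderOf_mk] at h9
      exact h8.trans h9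
    rw [h1] at hd
    have h4 : p ∣ 1 := by
      have h5 : (M'.index) ≡ 1 [MOD Nat.card M'] := h2
      have h6 := h5.of_dvd h3
      exact (Nat.modEq_zero_iff_dvd.1 ((Nat.modEq_zero_iff_dvd.2 hd).symm.trans h6).symm)
    exact hp.out.one_lt.ne' (Nat.dvd_one.1 h4)
  -- `x` and `N` generate
  have hgen : N ⊔ zpowers x = ⊤ := by
    by_contra hne
    have h1 := huniq _ hne ((le_sup_right : zpowers x ≤ _) (mem_zpowers x))
    have h2 : N ≤ M := le_sup_left.trans h1
    have h3 : N = Z := by rw [← hNM]; exact (inf_eq_left.2 h2).symm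
    have h4 : N' = ⊥ := by
      rw [eq_bot_iff]
      intro y' hy'
      obtain ⟨y, rfl⟩ := hsurj y'
      rw [mem_bot, hker, ← h3]
      exact hy'
    apply hfrob.2.1
    have h5 := hcompl.sup_eq_top
    rwa [h4, bot_sup_eq] at h5
  -- Sylow p-subgroup of `N` is central
  obtain ⟨P₀⟩ : Nonempty (Sylow p N) := inferInstance
  have hP₀Z : ∀ y ∈ (P₀ : Subgroup N), (y : G) ∈ Z := by
    intro y hy
    rw [← hker]
    have hyN : π (y : G) ∈ N' := y.2
    obtain ⟨k, hk⟩ := P₀.isPGroup' ⟨y, hy⟩
    have h1 : (π (y : G)) ^ p ^ k = 1 := by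
      rw [← map_pow]
      have : (y : G) ^ p ^ k = 1 := congrArg (fun z : P₀ => ((z : N) : G)) hk
      rw [this, map_one]
    have h2 : orderOf (π (y : G)) ∣ Nat.card N' := by
      have := orderOf_dvd_natCard (⟨π (y : G), hyN⟩ : N')
      rwa [Subgroup.orderOf_mk] at this
    have h3 : orderOf (π (y : G)) ∣ 1 := by
      have hc : Nat.Coprime (p ^ k) (Nat.card N') := ((Nat.Prime.coprime_iff_not_dvd hp.out).2 hpN').pow_left k
      rw [← hc]
      exact Nat.dvd_gcd (orderOf_dvd_of_pow_eq_one h1) h2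
    exact orderOf_eq_one_iff.1 (Nat.dvd_one.1 h3)
  haveI hP₀n : (P₀ : Subgroup N).Normal := by
    refine ⟨fun y hy g => ?_⟩
    have : g * y * g⁻¹ = y := by
      apply Subtype.ext
      have h1 := mem_center_iff.1 (hP₀Z y hy) (g : G)
      show (g : G) * y * (g : G)⁻¹ = y
      rw [h1, mul_inv_cancel_right]
    rw [this]; exact hy
  have hcop : Nat.Coprime (Nat.card (P₀ : Subgroup N)) (P₀ : Subgroup N).index := by
    obtain ⟨k, hk⟩ := IsPGroup.iff_card.1 P₀.isPGroup'
    rw [hk]
    exact Nat.Coprime.pow_left k ((Nat.Prime.coprime_iff_not_dvd hp.out).2 P₀.not_dvd_index)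
  obtain ⟨K₀, hK₀⟩ := exists_right_complement'_of_coprime hcop
  have hK₀c : (Nat.card K₀).Coprime p := by
    have : Nat.card K₀ = (P₀ : Subgroup N).index := hK₀.symm.index_eq_card.symm
    rw [this]
    exact ((Nat.Prime.coprime_iff_not_dvd hp.out).2 P₀.not_dvd_index).symm
  set K := K₀.map N.subtype with hK
  have hKc : Nat.card K = Nat.card K₀ := (Nat.card_congr (K₀.equivMapOfInjective N.subtype N.subtype_injective).toEquiv).symm
  have hxK : ∀ k ∈ K, x * k * x⁻¹ ∈ K := by
    rintro _ ⟨k, hk, rfl⟩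
    have h1 : x * (k : G) * x⁻¹ ∈ N := Normal.conj_mem inferInstance _ k.2 x
    obtain ⟨⟨z, k'⟩, hzk⟩ := (hK₀ : Function.Bijective _).2 ⟨_, h1⟩
    have h2 : ((z : N) : G) * ((k' : N) : G) = x * (k : G) * x⁻¹ := congrArg Subtype.val hzk
    have hz := hP₀Z z z.2
    have h3 : ((z : N) : G) ^ Nat.card K₀ = 1 := by
      have h4 : (((z : N) : G) * ((k' : N) : G)) ^ Nat.card K₀ = 1 := by
        rw [h2, conj_pow]
        have : (k : G) ^ Nat.card K₀ = 1 := by
          have := pow_card_eq_one' (x := (⟨k, hk⟩ : K₀))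
          exact congrArg (fun z : K₀ => ((z : N) : G)) this
        rw [this, mul_one, mul_inv_cancel]
      have h5 : Commute ((z : N) : G) ((k' : N) : G) := (mem_center_iff.1 hz _).symm
      rw [h5.mul_pow] at h4
      have : ((k' : N) : G) ^ Nat.card K₀ = 1 := congrArg (fun z : K₀ => ((z : N) : G)) (pow_card_eq_one' (x := k'))
      rwa [this, mul_one] at h4
    obtain ⟨j, hj⟩ := P₀.isPGroup' z
    have h6 : ((z : N) : G) ^ p ^ j = 1 := congrArg (fun z : P₀ => ((z : N) : G)) hj
    have h7 : orderOf ((z : N) : G) ∣ 1 := by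
      rw [← (hK₀c.pow_right j)]
      exact Nat.dvd_gcd (orderOf_dvd_of_pow_eq_one h3) (orderOf_dvd_of_pow_eq_one h6)
    have h8 : ((z : N) : G) = 1 := orderOf_eq_one_iff.1 (Nat.dvd_one.1 h7)
    rw [h8, one_mul] at h2
    exact ⟨k', k'.2, h2⟩
  have hcent := h.b K (by rw [hKc]; exact hK₀c) hxK
  apply hMtop
  rw [← top_le_iff, ← hgen]
  refine sup_le ?_ (zpowers_le.2 hxM)
  intro y hy
  obtain ⟨⟨z, k'⟩, hzk⟩ := (hK₀ : Function.Bijective _).2 ⟨y, hy⟩
  have h2 : ((z : N) : G) * ((k' : N) : G) = y := congrArg Subtype.val hzk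
  rw [← h2]
  refine mul_mem (hZM (hP₀Z z z.2)) ?_
  exact mem_centralizer_singleton_iff.2 (hcent _ ⟨k', k'.2, rfl⟩).symm

theorem main (S : Sylow p G) (x : G) (hx : x ∈ S)
    (hU : ∀ g : G, g⁻¹ * x * g ∈ S → g⁻¹ * x * g = x)
    (hb : ∀ H : Subgroup G, (Nat.card H).Coprime p → (∀ h ∈ H, x * h * x⁻¹ ∈ H) → ∀ h ∈ H, x * h = h * x) :
    x ∈ Subgroup.center G := by
  refine main_aux (p := p) _ G rfl x ⟨?_, ?_, hb⟩
  · exact S.isPGroup'.to_le (zpowers_le.2 hx)
  · intro g T hT hxT hgT
    obtain ⟨S', hS'⟩ := hT.exists_le_sylow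
    obtain ⟨h, hh⟩ := MulAction.exists_smul_eq G S S'
    have key : ∀ y ∈ T, h⁻¹ * y * h ∈ S := by
      intro y hy
      have h1 : y ∈ S' := hS' hy
      rw [← hh] at h1
      exact H1.Basic.mem_conj.1 h1
    have h1 := hU h (key x hxT)
    have h2 := key _ hgT
    have e : h⁻¹ * (g⁻¹ * x * g) * h = (g * h)⁻¹ * x * (g * h) := by group
    rw [e] at h2
    have h3 := hU _ h2
    rw [← e] at h3
    have h4 : h * x * h⁻¹ = x := by
      have := congrArg (fun z => h * z * h⁻¹) h1
      simpa [mul_assoc] using this.symm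
    have h5 := congrArg (fun z => h * z * h⁻¹) h3
    simp only [h4] at h5
    have e2 : h * (h⁻¹ * (g⁻¹ * x * g) * h) * h⁻¹ = g⁻¹ * x * g := by group
    rw [← e2, h5]

end Cfsg.Agent.H2.WC1
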