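import Mathlib
import Cfsg.Prelude
import Cfsg.Agent.H13_Syl
import Cfsg.Agent.H2_Extra
import Cfsg.Agent.H2_Alperin
import Cfsg.Agent.H22_Basic

/-! Sylow `p`-subgroups extraspecial of order `p³` and exponent `p²`. -/

set_option autoImplicit false
set_option linter.unusedSectionVars false
set_option linter.style.haveILetI false

open Subgroup Cfsg
open scoped commutatorElement

universe u

namespace Cfsg.Agent.H2.XP2

open Cfsg.Agent.H2.Extra Cfsg.Agent.H13.Syl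

section tp
variable {E : Type u} [Group E] [Finite E] {p : ℕ} [hp : Fact p.Prime]

theorem mul_pow (hp2 : p ≠ 2) (hE : IsExtraspecial p E) (a b : E) : (a * b) ^ p = a ^ p * b ^ p := by
  have hc := comm_mem_center hE b a
  rw [Cfsg.Agent.H2.Alperin.mul_pow_local (mem_center_iff.1 hc a) (mem_center_iff.1 hc b)]
  have h4 : p ∣ p.choose 2 := by
    have := Cfsg.Agent.H2.Alperin.dvd_choose_of_odd (n := 1) hp.out hp2
    simpa using this
  obtain ⟨k, hk⟩ := h4
  rw [hk, pow_mul, center_pow hE hc, one_pow, mul_one]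

/-- the power map -/
def pw (hp2 : p ≠ 2) (hE : IsExtraspecial p E) : E →* E where
  toFun x := x ^ p
  map_one' := one_pow p
  map_mul' := mul_pow hp2 hE

theorem card_ker (hp2 : p ≠ 2) (hE : IsExtraspecial p E) (hc : Nat.card E = p ^ 3) (hexp : Monoid.exponent E = p ^ 2) :
    Nat.card (pw hp2 hE).ker = p ^ 2 := by
  have hpp := hp.out
  have h1 : (pw hp2 hE).range ≤ center E := by
    rintro _ ⟨x, rfl⟩
    exact pow_mem_center hE x
  have h2 : (pw hp2 hE).range ≠ ⊥ := by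
    intro hb
    have h3 : Monoid.exponent E ∣ p := by
      apply Monoid.exponent_dvd_of_forall_pow_eq_one
      intro x
      have : (pw hp2 hE) x ∈ (pw hp2 hE).range := ⟨x, rfl⟩
      rw [hb, mem_bot] at this
      exact this
    rw [hexp] at h3
    have := Nat.le_of_dvd hpp.pos h3
    have h4 : p < p ^ 2 := by rw [sq]; exact (Nat.lt_mul_iff_one_lt_right hpp.pos).2 hpp.one_lt
    omega
  have h3 : Nat.card (pw hp2 hE).range = p := by
    have h4 : Nat.card (pw hp2 hE).range ∣ p := (Subgroup.card_dvd_of_le h1).trans hE.2.dvd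
    rcases (Nat.dvd_prime hpp).1 h4 with h5 | h5
    · exact absurd (card_eq_one.1 h5) h2
    · exact h5
  have h4 := (pw hp2 hE).ker.card_mul_index
  rw [Subgroup.index_ker, h3, hc] at h4
  have h5 : p ^ 3 = p ^ 2 * p := pow_succ p 2
  rw [h5] at h4
  exact Nat.eq_of_mul_eq_mul_right hpp.pos h4

theorem cent_ker (hp2 : p ≠ 2) (hE : IsExtraspecial p E) (hc : Nat.card E = p ^ 3) (hexp : Monoid.exponent E = p ^ 2)
    {H : Subgroup E} (hH : (pw hp2 hE).ker ≤ H) (hy : ∃ x ∈ H, x ^ p ≠ 1) : H = ⊤ := by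
  have hpp := hp.out
  apply Subgroup.eq_top_of_card_eq
  have h1 := card_ker hp2 hE hc hexp
  obtain ⟨k, hk⟩ := IsPGroup.iff_card.1 ((hE.1.1).to_subgroup H)
  have h2 : Nat.card (pw hp2 hE).ker < Nat.card H := by
    have h3 : (pw hp2 hE).ker < H := by
      refine lt_of_le_of_ne hH ?_
      rintro rfl
      obtain ⟨x, hx, hx'⟩ := hy
      exact hx' hx
    exact Cfsg.Agent.H2.Card.card_lt_of_lt h3
  rw [h1, hk] at h2
  have h3 := (Nat.pow_lt_pow_iff_right hpp.one_lt).1 h2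
  have h4 : Nat.card H ∣ p ^ 3 := by rw [← hc]; exact Subgroup.card_subgroup_dvd_card H
  rw [hk] at h4 ⊢
  have h5 := (Nat.pow_dvd_pow_iff_le_right hpp.one_lt).1 h4
  rw [hc]
  congr 1
  omega

end tp


theorem main' {G : Type u} [Group G] [Finite G]
    {p : ℕ} [hp : Fact p.Prime] (hp2 : p ≠ 2) {P : Subgroup G} (hS : IsSylIn p P ⊤) (hE : Cfsg.IsExtraspecial p P)
    (hcard : Nat.card P = p ^ 3) (hexp : Monoid.exponent P = p ^ 2) :
    Cfsg.IsStronglyClosed ((Subgroup.center P).map P.subtype) P := by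
  classical
  have hpp := hp.out
  refine ⟨map_subtype_le _, ?_⟩
  rintro _ ⟨w, hw, rfl⟩ g hgP
  change g * (w : G) * g⁻¹ ∈ P at hgP
  by_contra hcon
  set x : G := g * (w : G) * g⁻¹ with hx
  have hxc : (⟨x, hgP⟩ : P) ∉ center P := fun hh => hcon ⟨_, hh, rfl⟩
  -- `E`
  set E' := (pw hp2 hE).ker with hE'
  set E := E'.map P.subtype with hEdef
  have hEP : E ≤ P := map_subtype_le _
  have hEc : Nat.card E = p ^ 2 := by
    rw [← card_ker hp2 hE hcard hexp]
    exact (Nat.card_congr (E'.equivMapOfInjective P.subtype P.subtype_injective).toEquiv).symm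
  have hEcomm : ∀ a ∈ E, ∀ b ∈ E, a * b = b * a := by
    have hEm : IsMulCommutative E := IsPGroup.isMulCommutative_of_card_eq_prime_sq hEc
    intro a ha b hb
    exact congrArg Subtype.val (hEm.is_comm.comm (⟨a, ha⟩ : E) ⟨b, hb⟩)
  have hEmem : ∀ y ∈ P, (y ∈ E ↔ y ^ p = 1) := by
    intro y hy
    constructor
    · rintro ⟨z, hz, rfl⟩
      exact congrArg Subtype.val (show z ^ p = 1 from hz)
    · intro h
      exact ⟨⟨y, hy⟩, Subtype.ext h, rfl⟩
  have hwp : (w : G) ^ p = 1 := congrArg Subtype.val (center_pow hE hw)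
  have hxp : x ^ p = 1 := by rw [hx, conj_pow, hwp]; group
  have hxE : x ∈ E := (hEmem x hgP).2 hxp
  have hx1 : x ≠ 1 := by
    intro h1
    apply hxc
    have : (⟨x, hgP⟩ : P) = 1 := Subtype.ext h1
    rw [this]; exact one_mem _
  have hw1 : (w : G) ≠ 1 := by
    intro h1
    apply hx1
    rw [hx, h1]; group
  have hcen : ∀ z ∈ center P, ∀ u ∈ P, (z : G) * u = u * z := by
    intro z hz u hu
    exact congrArg Subtype.val (mem_center_iff.1 hz ⟨u, hu⟩).symm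
  have hzp : ∀ z ∈ center P, (z : G) ^ p = 1 := fun z hz => congrArg Subtype.val (center_pow hE hz)
  -- the center is generated by any nontrivial element
  have hgen : ∀ z ∈ center P, (z : G) ≠ 1 → ∀ v ∈ center P, (v : G) ∈ zpowers (z : G) := by
    intro z hz hz1 v hv
    have h1 : zpowers z = center P := by
      apply Subgroup.eq_of_le_of_card_ge (zpowers_le.2 hz)
      rw [Nat.card_zpowers, orderOf_eq_prime (center_pow hE hz) (fun h => hz1 (congrArg Subtype.val h))]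
      exact hE.2.le
    have h2 : v ∈ zpowers z := by rw [h1]; exact hv
    obtain ⟨n, hn⟩ := mem_zpowers_iff.1 h2
    exact mem_zpowers_iff.2 ⟨n, congrArg Subtype.val hn⟩
  -- a noncommuting element
  obtain ⟨y, hyP, hy⟩ : ∃ y ∈ P, ¬ y * x = x * y := by
    by_contra hh
    push Not at hh
    apply hxc
    rw [mem_center_iff]
    intro y
    exact Subtype.ext (hh y y.2)
  set z : G := ⁅y, x⁆ with hz
  have hzc : ∃ z' ∈ center P, (z' : G) = z := ⟨⁅(⟨y, hyP⟩ : P), ⟨x, hgP⟩⁆, comm_mem_center hE _ _, rfl⟩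
  have hz1 : z ≠ 1 := by
    intro h1
    exact hy (commutatorElement_eq_one_iff_mul_comm.1 h1)
  obtain ⟨z', hz'c, hz'⟩ := hzc
  have hzP : z ∈ P := by rw [← hz']; exact z'.2
  have hzE : z ∈ E := (hEmem z hzP).2 (by rw [← hz']; exact hzp z' hz'c)
  have hzcomm : ∀ u ∈ P, z * u = u * z := by rw [← hz']; exact hcen z' hz'c
  -- a conjugate of `P` containing `E` and centralizing `x`
  obtain ⟨h, hhx, hEh⟩ : ∃ h : G, h * (w : G) * h⁻¹ = x ∧ E ≤ cj h P := by
    set C := centralizer ({x} : Set G) with hC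
    have h1 : IsSylIn p (cj g P) C := by
      apply (by simpa [cj_top] using hS.cj g : IsSylIn p (cj g P) ⊤).mono
      · rintro _ ⟨u, hu, rfl⟩
        rw [hC, mem_centralizer_singleton_iff]
        show g * u * g⁻¹ * (g * (w : G) * g⁻¹) = g * (w : G) * g⁻¹ * (g * u * g⁻¹)
        have := hcen w hw u hu
        have e1 : g * u * g⁻¹ * (g * (w : G) * g⁻¹) = g * (u * w) * g⁻¹ := by group
        rw [e1, ← this]; group
      · exact le_top
    have h2 : E ≤ C := fun e he => mem_centralizer_singleton_iff.2 (hEcomm e he x hxE)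
    obtain ⟨c, hc, hcE⟩ := h1.exists_conj_le (hS.2.1.to_le hEP) h2
    refine ⟨c⁻¹ * g, ?_, ?_⟩
    · have h3 : c⁻¹ ∈ C := inv_mem hc
      have h4 := mem_centralizer_singleton_iff.1 h3
      have e1 : c⁻¹ * g * (w : G) * (c⁻¹ * g)⁻¹ = c⁻¹ * x * c := by rw [hx]; group
      rw [e1, h4, inv_mul_cancel_right]
    · rw [cj_le_iff] at hcE
      rw [cj_mul]; exact hcE
  have hEnorm : cj h E = E := by
    symm
    apply Subgroup.eq_of_le_of_card_ge
    · intro e he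
      rw [mem_cj]
      have h1 := mem_cj.1 (hEh he)
      rw [hEmem _ h1]
      have h2 : e ^ p = 1 := (hEmem e (hEP he)).1 he
      have e1 : h⁻¹ * e * h = h⁻¹ * e * h⁻¹⁻¹ := by rw [inv_inv]
      rw [e1, conj_pow, h2]; group
    · rw [card_cj]
  -- generation of `E`
  have hxz : ∀ k : ℤ, x ≠ z ^ k := by
    intro k hk
    apply hy
    rw [hk]
    exact ((show Commute z y from hzcomm y hyP).zpow_left k).eq.symm
  have hxnz : x ∉ zpowers z := fun hh => by
    obtain ⟨k, hk⟩ := mem_zpowers_iff.1 hh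
    exact hxz k hk.symm
  have hznx : z ∉ zpowers x := by
    intro hh
    have h1 : zpowers z = zpowers x := by
      apply Subgroup.eq_of_le_of_card_ge (zpowers_le.2 hh)
      rw [Nat.card_zpowers, Nat.card_zpowers, orderOf_eq_prime hxp hx1,
        orderOf_eq_prime (by rw [← hz']; exact hzp z' hz'c) hz1]
    exact hxnz (by rw [h1]; exact mem_zpowers x)
  have hEgen : ∀ H : Subgroup G, x ∈ H → z ∈ H → E ≤ H := by
    intro H h1 h2
    have h3 : E ⊓ H = E := by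
      apply Subgroup.eq_of_le_of_card_ge inf_le_left
      rw [hEc]
      obtain ⟨k, hk⟩ := IsPGroup.iff_card.1 ((hS.2.1.to_le hEP).to_le (inf_le_left : E ⊓ H ≤ E))
      rw [hk]
      apply Nat.pow_le_pow_right hpp.pos
      by_contra hlt
      have h4 : k ≤ 1 := by omega
      have h5 : zpowers x ≤ E ⊓ H := zpowers_le.2 (mem_inf.2 ⟨hxE, h1⟩)
      have h6 : E ⊓ H = zpowers x := by
        symm
        apply Subgroup.eq_of_le_of_card_ge h5
        rw [hk, Nat.card_zpowers, orderOf_eq_prime hxp hx1]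
        calc p ^ k ≤ p ^ 1 := Nat.pow_le_pow_right hpp.pos h4
          _ = p := pow_one p
      apply hznx
      rw [← h6]; exact mem_inf.2 ⟨hzE, h2⟩
    rw [← h3]; exact inf_le_right
  -- the second transvection
  set y₁ : G := h * y * h⁻¹ with hy₁
  have hy₁x : y₁ * x = x * y₁ := by
    have h1 := hcen w hw y hyP
    rw [hy₁, ← hhx]
    have e1 : h * y * h⁻¹ * (h * (w : G) * h⁻¹) = h * (y * w) * h⁻¹ := by group
    rw [e1, ← h1]; group
  set e : G := h⁻¹ * z * h with he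
  have heE : e ∈ E := by
    have : z ∈ cj h E := by rw [hEnorm]; exact hzE
    exact mem_cj.1 this
  have heP := hEP heE
  have hye : ⁅y, e⁆ ≠ 1 := by
    intro h1
    have h2 := commutatorElement_eq_one_iff_mul_comm.1 h1
    -- `e` is central
    have h3 : (⟨e, heP⟩ : P) ∈ center P := by
      have h4 : centralizer ({(⟨e, heP⟩ : P)} : Set P) = ⊤ := by
        apply cent_ker hp2 hE hcard hexp
        · intro v hv
          rw [mem_centralizer_singleton_iff]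
          exact Subtype.ext (hEcomm v ⟨v, hv, rfl⟩ e heE)
        · refine ⟨⟨y, hyP⟩, mem_centralizer_singleton_iff.2 (Subtype.ext h2), ?_⟩
          intro h5
          apply hy
          exact hEcomm y ((hEmem y hyP).2 (congrArg Subtype.val h5)) x hxE
      rw [mem_center_iff]
      intro v
      have : v ∈ centralizer ({(⟨e, heP⟩ : P)} : Set P) := by rw [h4]; exact mem_top v
      exact mem_centralizer_singleton_iff.1 this
    have h4 := hgen w hw hw1 ⟨e, heP⟩ h3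
    obtain ⟨n, hn⟩ := mem_zpowers_iff.1 h4
    apply hznx
    refine mem_zpowers_iff.2 ⟨n, ?_⟩
    rw [← hhx, conj_zpow, hn]
    show h * e * h⁻¹ = z
    rw [he]; group
  have hy₁z : ∃ j : ℤ, ¬ (p : ℤ) ∣ j ∧ y₁ * z * y₁⁻¹ = x ^ j * z := by
    have h1 : (⁅(⟨y, hyP⟩ : P), ⟨e, heP⟩⁆ : P) ∈ center P := comm_mem_center hE _ _
    have h2 := hgen w hw hw1 _ h1
    obtain ⟨j, hj⟩ := mem_zpowers_iff.1 h2
    refine ⟨j, ?_, ?_⟩
    · rintro ⟨m, rfl⟩
      apply hye
      have h3 : (w : G) ^ ((p : ℤ) * m) = ⁅y, e⁆ := hj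
      rw [← h3, zpow_mul, zpow_natCast, hwp, one_zpow]
    · have h3 : (w : G) ^ j = ⁅y, e⁆ := hj
      have h4 : x ^ j = h * ⁅y, e⁆ * h⁻¹ := by rw [← hhx, conj_zpow, h3]
      rw [h4, commutatorElement_def, he, hy₁]
      group
  obtain ⟨j, hj, hjz⟩ := hy₁z
  obtain ⟨k, hk⟩ : ∃ k : ℤ, x ^ (j * k) = x⁻¹ := by
    have h1 : IsCoprime (p : ℤ) j := (Nat.prime_iff_prime_int.1 hpp).coprime_iff_not_dvd.2 hj
    obtain ⟨a, b, hab⟩ := h1
    refine ⟨-b, ?_⟩
    have e1 : j * -b = -1 + p * a := by linear_combination -hab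
    rw [e1, zpow_add, zpow_mul, zpow_natCast, hxp, one_zpow, mul_one, zpow_neg_one]
  set y₂ : G := y₁ ^ k with hy₂
  have hy₂x : y₂ * x * y₂⁻¹ = x := by
    have : Commute y₁ x := hy₁x
    rw [hy₂, (this.zpow_left k).eq, mul_inv_cancel_right]
  have hy₂z : y₂ * z * y₂⁻¹ = x⁻¹ * z := by
    have key : ∀ n : ℕ, y₁ ^ n * z * (y₁ ^ n)⁻¹ = x ^ (j * n) * z := by
      intro n
      induction n with
      | zero => simp
      | succ n ih =>
        have e1 : y₁ ^ (n + 1) * z * (y₁ ^ (n + 1))⁻¹ = y₁ * (y₁ ^ n * z * (y₁ ^ n)⁻¹) * y₁⁻¹ := by rw [pow_succ']; group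
        have hc : Commute y₁ (x ^ (j * n)) := (show Commute y₁ x from hy₁x).zpow_right _
        rw [e1, ih, ← mul_assoc, hc.eq, mul_assoc, mul_assoc, ← mul_assoc y₁, hjz, ← mul_assoc, ← zpow_add]
        congr 2
        push_cast; ring
    have hkz : ∀ m : ℤ, y₁ ^ m * z * (y₁ ^ m)⁻¹ = x ^ (j * m) * z := by
      intro m
      obtain ⟨n, rfl | rfl⟩ := m.eq_nat_or_neg
      · rw [zpow_natCast]; exact key n
      · have h1 := key n
        have hc : Commute (y₁ ^ n) (x ^ (j * n)) := ((show Commute y₁ x from hy₁x).zpow_right _).pow_left n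
        have h2 : z = (x ^ (j * n)) * ((y₁ ^ n)⁻¹ * z * (y₁ ^ n)) := by
          have h3 := congrArg (fun t => (y₁ ^ n)⁻¹ * t * (y₁ ^ n)) h1
          beta_reduce at h3
          have e1 : (y₁ ^ n)⁻¹ * (y₁ ^ n * z * (y₁ ^ n)⁻¹) * (y₁ ^ n) = z := by group
          have e2 : (y₁ ^ n)⁻¹ * (x ^ (j * n) * z) * (y₁ ^ n) = x ^ (j * n) * ((y₁ ^ n)⁻¹ * z * (y₁ ^ n)) := by
            rw [← mul_assoc, (hc.inv_left).eq]; group
          rw [e1, e2] at h3
          exact h3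
        rw [zpow_neg, zpow_natCast, inv_inv, mul_neg, zpow_neg]
        exact eq_inv_mul_iff_mul_eq.2 h2.symm
    rw [hy₂, hkz, hk]
  -- `s`
  have hyx : y * x * y⁻¹ = z * x := by rw [hz, commutatorElement_def]; group
  have hyz : y * z * y⁻¹ = z := by rw [← hzcomm y hyP, mul_inv_cancel_right]
  have hxz' : x * z = z * x := hEcomm x hxE z hzE
  set s : G := y * y₂ * y with hs
  have hsx : s * x * s⁻¹ = z := by
    have e1 : s * x * s⁻¹ = y * (y₂ * (y * x * y⁻¹) * y₂⁻¹) * y⁻¹ := by rw [hs]; group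
    have e2 : y₂ * (z * x) * y₂⁻¹ = (y₂ * z * y₂⁻¹) * (y₂ * x * y₂⁻¹) := by group
    have e3 : x⁻¹ * z * x = z := by rw [mul_assoc, ← hxz', inv_mul_cancel_left]
    rw [e1, hyx, e2, hy₂z, hy₂x, e3, hyz]
  have hsz : s * z * s⁻¹ = x⁻¹ := by
    have e1 : s * z * s⁻¹ = y * (y₂ * (y * z * y⁻¹) * y₂⁻¹) * y⁻¹ := by rw [hs]; group
    have e2 : y * (x⁻¹ * z) * y⁻¹ = (y * x * y⁻¹)⁻¹ * (y * z * y⁻¹) := by group
    rw [e1, hyz, hy₂z, e2, hyz, hyx, mul_inv_rev, inv_mul_cancel_right]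
  set t₀ : G := s * s with ht₀
  have ht₀x : t₀ * x * t₀⁻¹ = x⁻¹ := by
    have e1 : t₀ * x * t₀⁻¹ = s * (s * x * s⁻¹) * s⁻¹ := by rw [ht₀]; group
    rw [e1, hsx, hsz]
  have ht₀z : t₀ * z * t₀⁻¹ = z⁻¹ := by
    have e1 : t₀ * z * t₀⁻¹ = s * (s * z * s⁻¹) * s⁻¹ := by rw [ht₀]; group
    have e2 : s * x⁻¹ * s⁻¹ = (s * x * s⁻¹)⁻¹ := by group
    rw [e1, hsz, e2, hsx]
  have hinv : ∀ v ∈ E, t₀ * v * t₀⁻¹ = v⁻¹ := by
    let H : Subgroup G :=
      { carrier := {v | v ∈ E ∧ t₀ * v * t₀⁻¹ = v⁻¹}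
        one_mem' := ⟨one_mem _, by group⟩
        mul_mem' := by
          rintro a b ⟨ha, ha'⟩ ⟨hb, hb'⟩
          refine ⟨mul_mem ha hb, ?_⟩
          have e1 : t₀ * (a * b) * t₀⁻¹ = (t₀ * a * t₀⁻¹) * (t₀ * b * t₀⁻¹) := by group
          rw [e1, ha', hb', ← mul_inv_rev, hEcomm b hb a ha]
        inv_mem' := by
          rintro a ⟨ha, ha'⟩
          refine ⟨inv_mem ha, ?_⟩
          have e1 : t₀ * a⁻¹ * t₀⁻¹ = (t₀ * a * t₀⁻¹)⁻¹ := by group
          rw [e1, ha'] }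
    intro v hv
    exact (hEgen H ⟨hxE, ht₀x⟩ ⟨hzE, ht₀z⟩ hv).2
  have hPE : ∀ u ∈ P, ∀ v ∈ E, u * v * u⁻¹ ∈ E := by
    rintro u hu _ ⟨v, hv, rfl⟩
    exact ⟨⟨u, hu⟩ * v * ⟨u, hu⟩⁻¹, Normal.conj_mem inferInstance v hv ⟨u, hu⟩, rfl⟩
  set C := centralizer (E : Set G) with hC
  have hPC : P ≤ normalizer (C : Set G) := by
    intro u hu
    rw [mem_normalizer_iff_cj, hC, cj_centralizer]
    congr 2
    symm
    apply Subgroup.eq_of_le_of_card_ge
    · intro v hv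
      rw [mem_cj]
      have := hPE u⁻¹ (inv_mem hu) v hv
      rwa [inv_inv] at this
    · rw [card_cj]
  have hK : cj t₀ P ≤ C ⊔ P := by
    rintro _ ⟨u, hu, rfl⟩
    show t₀ * u * t₀⁻¹ ∈ C ⊔ P
    have e1 : t₀ * u * t₀⁻¹ = (t₀ * u * t₀⁻¹ * u⁻¹) * u := by group
    rw [e1]
    refine mul_mem ((le_sup_left : C ≤ _) ?_) ((le_sup_right : P ≤ _) hu)
    rw [hC, mem_centralizer_iff]
    intro v hv
    have h1 := hPE u⁻¹ (inv_mem hu) v hv
    rw [inv_inv] at h1
    have h2 : t₀⁻¹ * v * t₀ = v⁻¹ := by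
      have := hinv v⁻¹ (inv_mem hv)
      rw [inv_inv] at this
      calc t₀⁻¹ * v * t₀ = t₀⁻¹ * (t₀ * v⁻¹ * t₀⁻¹) * t₀ := by rw [this]
        _ = v⁻¹ := by group
    have h3 : (t₀ * u * t₀⁻¹ * u⁻¹)⁻¹ * v * (t₀ * u * t₀⁻¹ * u⁻¹) = v := by
      have e2 : (t₀ * u * t₀⁻¹ * u⁻¹)⁻¹ * v * (t₀ * u * t₀⁻¹ * u⁻¹) = u * (t₀ * (u⁻¹ * (t₀⁻¹ * v * t₀) * u) * t₀⁻¹) * u⁻¹ := by group
      have e3 : u⁻¹ * v⁻¹ * u = (u⁻¹ * v * u)⁻¹ := by group
      rw [e2, h2, e3, hinv _ (inv_mem h1), inv_inv]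
      group
    have h4 := congrArg (fun r => (t₀ * u * t₀⁻¹ * u⁻¹) * r) h3
    beta_reduce at h4
    rw [← h4]; group
  have hS2 : IsSylIn p (cj t₀ P) ⊤ := by simpa [cj_top] using hS.cj t₀
  obtain ⟨k', hk', hk'P⟩ := (hS.mono (le_sup_right : P ≤ C ⊔ P) le_top).exists_conj_eq (hS2.mono hK le_top)
  obtain ⟨u, hu, c, hc, hcu⟩ := (H22.Basic.mem_sup_of_le_normalizer' hPC).1 hk'
  set t : G := c * t₀ with ht
  have htP : cj t P = P := by
    rw [← hcu, ← cj_mul, mul_assoc, cj_mul, cj_eq_iff, cj_eq_of_mem (inv_mem hu)] at hk'P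
    exact hk'P
  have htinv : ∀ v ∈ E, t * v * t⁻¹ = v⁻¹ := by
    intro v hv
    have e1 : t * v * t⁻¹ = c * (t₀ * v * t₀⁻¹) * c⁻¹ := by rw [ht]; group
    rw [e1, hinv v hv, ← mem_centralizer_iff.1 hc _ (inv_mem hv), mul_inv_cancel_right]
  -- the final contradiction
  obtain ⟨a, haP, hap⟩ : ∃ a ∈ P, a ^ p ≠ 1 := by
    by_contra hh
    push Not at hh
    have h3 : Monoid.exponent P ∣ p := by
      apply Monoid.exponent_dvd_of_forall_pow_eq_one
      intro v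
      exact Subtype.ext (hh v v.2)
    rw [hexp] at h3
    have := Nat.le_of_dvd hpp.pos h3
    have h4 : p < p ^ 2 := by rw [sq]; exact (Nat.lt_mul_iff_one_lt_right hpp.pos).2 hpp.one_lt
    omega
  have hta : t * a * t⁻¹ ∈ P := by
    have : t * a * t⁻¹ ∈ cj t P := conj_mem_cj haP
    rwa [htP] at this
  have hd : t * a * t⁻¹ * a⁻¹ ∈ E := by
    -- it centralizes `E`
    have hdP : t * a * t⁻¹ * a⁻¹ ∈ P := mul_mem hta (inv_mem haP)
    rw [hEmem _ hdP]
    by_contra hdp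
    have hdC : ∀ v ∈ E, v * (t * a * t⁻¹ * a⁻¹) = (t * a * t⁻¹ * a⁻¹) * v := by
      intro v hv
      have h1 := hPE a⁻¹ (inv_mem haP) v hv
      rw [inv_inv] at h1
      have h2 : t⁻¹ * (a⁻¹ * v * a) * t = (a⁻¹ * v * a)⁻¹ := by
        have := htinv (a⁻¹ * v * a)⁻¹ (inv_mem h1)
        rw [inv_inv] at this
        calc t⁻¹ * (a⁻¹ * v * a) * t = t⁻¹ * (t * (a⁻¹ * v * a)⁻¹ * t⁻¹) * t := by rw [this]
          _ = (a⁻¹ * v * a)⁻¹ := by group
      have h3 : (t * a * t⁻¹ * a⁻¹) * v * (t * a * t⁻¹ * a⁻¹)⁻¹ = v := by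
        have e2 : (t * a * t⁻¹ * a⁻¹) * v * (t * a * t⁻¹ * a⁻¹)⁻¹ = t * (a * (t⁻¹ * (a⁻¹ * v * a) * t) * a⁻¹) * t⁻¹ := by group
        have e3 : a * (a⁻¹ * v * a)⁻¹ * a⁻¹ = v⁻¹ := by group
        rw [e2, h2, e3, htinv _ (inv_mem hv), inv_inv]
      have h4 := congrArg (fun r => r * (t * a * t⁻¹ * a⁻¹)) h3
      beta_reduce at h4
      rw [← h4]; group
    have h5 : centralizer (E' : Set P) = ⊤ := by
      apply cent_ker hp2 hE hcard hexp
      · intro v hv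
        rw [mem_centralizer_iff]
        intro v' hv'
        exact Subtype.ext (hEcomm v' ⟨v', hv', rfl⟩ v ⟨v, hv, rfl⟩)
      · refine ⟨⟨_, hdP⟩, ?_, fun h => hdp (congrArg Subtype.val h)⟩
        rw [mem_centralizer_iff]
        intro v hv
        exact Subtype.ext (hdC v ⟨v, hv, rfl⟩)
    apply hy
    have h6 : (⟨y, hyP⟩ : P) ∈ centralizer (E' : Set P) := by rw [h5]; exact mem_top _
    obtain ⟨x', hx'E, hx'⟩ := hxE
    have h7 := congrArg Subtype.val (mem_centralizer_iff.1 h6 x' hx'E)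
    change (P.subtype x') * y = y * (P.subtype x') at h7
    rw [hx'] at h7
    exact h7.symm
  have h1 : (t * a * t⁻¹) ^ p = a ^ p := by
    have h2 := mul_pow hp2 hE ⟨_, hEP hd⟩ ⟨a, haP⟩
    have h3 := congrArg Subtype.val h2
    change (t * a * t⁻¹ * a⁻¹ * a) ^ p = (t * a * t⁻¹ * a⁻¹) ^ p * a ^ p at h3
    rw [(hEmem _ (hEP hd)).1 hd, one_mul, inv_mul_cancel_right] at h3
    exact h3
  have hacE : a ^ p ∈ E := by
    rw [hEmem _ (pow_mem haP p)]
    exact hzp _ (pow_mem_center hE ⟨a, haP⟩)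
  rw [conj_pow, htinv _ hacE] at h1
  have h2 : (a ^ p) ^ 2 = 1 := by rw [sq]; nth_rewrite 1 [← h1]; rw [inv_mul_cancel]
  have h3 : (a ^ p) ^ p = 1 := (hEmem _ (hEP hacE)).1 hacE
  apply hap
  have h4 : orderOf (a ^ p) ∣ 1 := by
    have hc : Nat.Coprime 2 p := (Nat.coprime_primes Nat.prime_two hpp).2 hp2.symm
    rw [← hc]
    exact Nat.dvd_gcd (orderOf_dvd_of_pow_eq_one h2) (orderOf_dvd_of_pow_eq_one h3)
  exact orderOf_eq_one_iff.1 (Nat.dvd_one.1 h4)

end Cfsg.Agent.H2.XP2
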