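import Mathlib
import Cfsg.Agent.H3_InvCount2
import Cfsg.Agent.H3_ZGrp
import Cfsg.Agent.H10_CycTI
import Cfsg.Agent.H18_Cyc
import Cfsg.Agent.H1_Basic

/-!
# The Alperin-Feit-Thompson theorem on 2-groups
-/

set_option autoImplicit false

open scoped ComplexConjugate

namespace Cfsg.Agent.H3.AFT

open Cfsg Cfsg.Agent.H3.CharBasic Cfsg.Agent.H3.CharIrr Cfsg.Agent.H3.CharComplete
  Cfsg.Agent.H3.CharInd Cfsg.Agent.H3.InvCount Cfsg.Agent.H3.CharInt

section Lin

variable (G : Type*) [Group G] [Finite G]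

theorem card_hom : Nat.card (G →* ℂˣ) = (commutator G).index := by
  rw [Nat.card_congr (Abelianization.lift (G := G) (A := ℂˣ)), CommGroup.card_monoidHom_of_hasEnoughRootsOfUnity (Abelianization G) ℂ]
  rfl

/-- real linear characters -/
def Lam (G : Type*) [Group G] : Subgroup (G →* ℂˣ) := (powMonoidHom 2 : (G →* ℂˣ) →* (G →* ℂˣ)).ker

variable {G}

omit [Finite G] in
theorem mem_Lam {l : G →* ℂˣ} : l ∈ Lam G ↔ l ^ 2 = 1 := MonoidHom.mem_ker

omit [Finite G] in
theorem Lam_sq {l : G →* ℂˣ} (hl : l ∈ Lam G) (g : G) : ((l g : ℂˣ) : ℂ) ^ 2 = 1 := by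
  have h1 := DFunLike.congr_fun (mem_Lam.mp hl) g
  rw [← Units.val_pow_eq_pow_val]
  exact congrArg Units.val h1

theorem exists_coatom_hom (hG : IsPGroup 2 G) {M : Subgroup G} (hM : IsCoatom M) : ∃ l ∈ Lam G, l.ker = M := by
  have : Fact (Nat.Prime 2) := ⟨Nat.prime_two⟩
  have hnil : Group.IsNilpotent G := hG.isNilpotent
  have hMn : M.Normal := Subgroup.NormalizerCondition.normal_of_coatom M Group.normalizerCondition_of_isNilpotent hM
  have hp := H1.Basic.index_prime_of_isCoatom_of_normal hM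
  obtain ⟨k, hk⟩ := hG.index M
  have h2 : M.index = 2 := by
    rw [hk] at hp ⊢
    have : k = 1 := hp.eq_one_of_pow
    rw [this, pow_one]
  have hcard : Nat.card (G ⧸ M) = 2 := by rw [← Subgroup.index_eq_card, h2]
  obtain ⟨x, hx⟩ : ∃ x, x ∉ M := by
    by_contra hne
    push Not at hne
    exact hM.1 (eq_top_iff.mpr (fun x _ => hne x))
  have hcyc : IsCyclic (G ⧸ M) := isCyclic_of_prime_card hcard
  have hcomm : commutator (G ⧸ M) = ⊥ := by
    rw [commutator_def, eq_bot_iff, Subgroup.commutator_le]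
    intro a _ b _
    rw [Subgroup.mem_bot, commutatorElement_eq_one_iff_mul_comm]
    obtain ⟨g, hg⟩ := hcyc.exists_generator
    obtain ⟨i, rfl⟩ := Subgroup.mem_zpowers_iff.mp (hg a)
    obtain ⟨j, rfl⟩ := Subgroup.mem_zpowers_iff.mp (hg b)
    exact ((Commute.refl g).zpow_zpow i j).eq
  obtain ⟨f, hf⟩ := ZGrp.exists_linear (x := (x : G ⧸ M)) (by
    rw [hcomm, Subgroup.mem_bot, QuotientGroup.eq_one_iff]
    exact hx)
  refine ⟨f.comp (QuotientGroup.mk' M), ?_, ?_⟩
  · rw [mem_Lam]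
    ext g
    rw [MonoidHom.pow_apply, MonoidHom.comp_apply, ← map_pow, ← map_pow]
    have h3 : (QuotientGroup.mk' M (g ^ 2) : G ⧸ M) = 1 := by
      rw [map_pow, ← hcard]
      exact pow_card_eq_one'
    rw [h3, map_one]
    rfl
  · rcases hM.le_iff.mp (show M ≤ (f.comp (QuotientGroup.mk' M)).ker from fun m hm => by
      rw [MonoidHom.mem_ker, MonoidHom.comp_apply, QuotientGroup.mk'_apply, (QuotientGroup.eq_one_iff m).mpr hm, map_one]) with h | h
    · exfalso
      apply hf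
      have : x ∈ (f.comp (QuotientGroup.mk' M)).ker := by rw [h]; trivial
      exact this
    · exact h

theorem four_dvd (hG : IsPGroup 2 G) (hnc : ¬ IsCyclic G) : 4 ∣ Nat.card (Lam G) := by
  classical
  have : Fact (Nat.Prime 2) := ⟨Nat.prime_two⟩
  have hnt : (⊥ : Subgroup G) ≠ ⊤ := by
    intro h
    apply hnc
    have : Subsingleton G := (Subgroup.subsingleton_iff.mp (subsingleton_of_bot_eq_top h))
    infer_instance
  obtain ⟨M1, hM1⟩ : ∃ M : Subgroup G, IsCoatom M := by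
    by_contra hcon
    push Not at hcon
    exact hnc (H18.Cyc.isCyclic_of_coatom_unique hnt (fun N hN => absurd hN (hcon N)))
  obtain ⟨M2, hM2, h12⟩ : ∃ M : Subgroup G, IsCoatom M ∧ ¬ M ≤ M1 := by
    by_contra hcon
    push Not at hcon
    exact hnc (H18.Cyc.isCyclic_of_coatom_unique hM1.1 (fun N hN => hcon N hN))
  obtain ⟨l1, hl1, hk1⟩ := exists_coatom_hom hG hM1
  obtain ⟨l2, hl2, hk2⟩ := exists_coatom_hom hG hM2
  have hp : IsPGroup 2 (Lam G) := fun l => ⟨1, by
    rw [pow_one]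
    exact Subtype.ext (mem_Lam.mp l.2)⟩
  obtain ⟨k, hk⟩ := IsPGroup.iff_card.mp hp
  have h3 : 3 ≤ Nat.card (Lam G) := by
    have := Fintype.ofFinite (Lam G)
    rw [Nat.card_eq_fintype_card]
    have hne : ({1, ⟨l1, hl1⟩, ⟨l2, hl2⟩} : Finset (Lam G)).card = 3 := by
      rw [Finset.card_eq_three]
      refine ⟨1, ⟨l1, hl1⟩, ⟨l2, hl2⟩, ?_, ?_, ?_, rfl⟩
      · intro h
        have h4 : (1 : G →* ℂˣ) = l1 := congrArg Subtype.val h
        rw [← h4, MonoidHom.ker_one] at hk1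
        exact hM1.1 hk1.symm
      · intro h
        have h4 : (1 : G →* ℂˣ) = l2 := congrArg Subtype.val h
        rw [← h4, MonoidHom.ker_one] at hk2
        exact hM2.1 hk2.symm
      · intro h
        have h4 : l1 = l2 := congrArg Subtype.val h
        rw [← h4, hk1] at hk2
        exact h12 hk2.ge
    rw [← hne]
    exact Finset.card_le_univ _
  rw [hk] at h3 ⊢
  have : 2 ≤ k := by
    by_contra hcon
    have : k = 0 ∨ k = 1 := by omega
    rcases this with rfl | rfl <;> norm_num at h3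
  exact (pow_dvd_pow 2 this)

end Lin

section Main

variable {G : Type*} [Group G] [Fintype G]

/-- twisting by a linear character -/
noncomputable def tw (l : G →* ℂˣ) (χ : IrrCharacter G) : IrrCharacter G :=
  ⟨(fun g => (l g : ℂ)) * (χ : G → ℂ), IsIrr.mul_linear χ.2 (IsIrr.isCharacter (isIrr_of_hom_units l)) (by
    show ((l 1 : ℂˣ) : ℂ) = 1
    rw [map_one, Units.val_one])⟩

theorem tw_apply (l : G →* ℂˣ) (χ : IrrCharacter G) (g : G) : (tw l χ : G → ℂ) g = (l g : ℂ) * (χ : G → ℂ) g := rfl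

theorem tw_one (χ : IrrCharacter G) : tw 1 χ = χ := by
  apply Subtype.ext
  funext g
  rw [tw_apply, MonoidHom.one_apply, Units.val_one, one_mul]

theorem tw_mul (l m : G →* ℂˣ) (χ : IrrCharacter G) : tw (l * m) χ = tw l (tw m χ) := by
  apply Subtype.ext
  funext g
  rw [tw_apply, tw_apply, tw_apply, MonoidHom.mul_apply, Units.val_mul, mul_assoc]

theorem tw_deg (l : G →* ℂˣ) (χ : IrrCharacter G) : charDegree (tw l χ : G → ℂ) = charDegree (χ : G → ℂ) := by
  apply PRes.charDegree_eq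
  rw [tw_apply, map_one, Units.val_one, one_mul, PRes.charDegree_cast (IsIrr.isCharacter χ.2)]

/-- the real irreducible characters of degree two -/
def IsX (χ : IrrCharacter G) : Prop := charDegree (χ : G → ℂ) = 2 ∧ ∀ g, ((χ : G → ℂ) g).im = 0

theorem pm_of_sq {z : ℂ} (h : z ^ 2 = 1) : z = 1 ∨ z = -1 := by
  have h1 : (z - 1) * (z + 1) = 0 := by linear_combination h
  rcases mul_eq_zero.mp h1 with h2 | h2
  · exact Or.inl (sub_eq_zero.mp h2)
  · exact Or.inr (eq_neg_of_add_eq_zero_left h2)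

theorem IsX.tw {l : G →* ℂˣ} {χ : IrrCharacter G} (hl : l ∈ Lam G) (hχ : IsX χ) : IsX (tw l χ) := by
  refine ⟨by rw [tw_deg, hχ.1], fun g => ?_⟩
  rw [tw_apply]
  rcases pm_of_sq (Lam_sq hl g) with h | h
  · rw [h, one_mul]; exact hχ.2 g
  · rw [h, neg_one_mul, Complex.neg_im, hχ.2 g, neg_zero]

noncomputable instance act : MulAction (Lam G) {χ : IrrCharacter G // IsX χ} where
  smul l χ := ⟨tw l.1 χ.1, χ.2.tw l.2⟩
  one_smul χ := Subtype.ext (tw_one χ.1)
  mul_smul l m χ := Subtype.ext (tw_mul l.1 m.1 χ.1)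

theorem smul_def (l : Lam G) (χ : {χ : IrrCharacter G // IsX χ}) : (l • χ).1 = tw l.1 χ.1 := rfl

theorem deg_pow (hG : IsPGroup 2 G) (χ : IrrCharacter G) : ∃ k, charDegree (χ : G → ℂ) = 2 ^ k := by
  have : Fact (Nat.Prime 2) := ⟨Nat.prime_two⟩
  obtain ⟨n, hn0, hn1, hn⟩ := IsIrr.dvd_card χ.2
  obtain ⟨m, hm⟩ := IsPGroup.iff_card.mp hG
  rw [hm, Nat.dvd_prime_pow Nat.prime_two] at hn
  obtain ⟨k, -, hk⟩ := hn
  exact ⟨k, by rw [PRes.charDegree_eq hn1, hk]⟩

/-- the number of real irreducible characters of degree two is odd -/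
theorem odd_X (hG : IsPGroup 2 G) (hnc : ¬ IsCyclic G) (ht : Nat.card {x : G // orderOf x = 2} % 4 = 1) :
    Odd (Nat.card {χ : IrrCharacter G // IsX χ}) := by
  classical
  have := Fintype.ofFinite (IrrCharacter G)
  choose e he1 he2 he3 using fun χ : IrrCharacter G => exists_eps χ.2
  have h1 := count_sq (1 : G)
  rw [card_sq_one (G := G), Finset.sum_congr rfl fun χ _ => by rw [he1 χ, PRes.charDegree_cast (IsIrr.isCharacter χ.2)]] at h1
  have h2 : ((Nat.card {x : G // orderOf x = 2} + 1 : ℕ) : ℤ) = ∑ χ : IrrCharacter G, e χ * charDegree (χ : G → ℂ) := by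
    exact_mod_cast h1
  -- `e = ±1` for real characters
  have he4 : ∀ χ : IrrCharacter G, (∀ g, ((χ : G → ℂ) g).im = 0) → e χ = 1 ∨ e χ = -1 := by
    intro χ hχ
    rcases nu_cases χ.2 with ⟨-, h⟩ | ⟨-, h | h⟩
    · exact absurd hχ h
    · left
      rw [he1] at h
      exact_mod_cast h
    · right
      rw [he1] at h
      exact_mod_cast h
  -- linear real characters
  let LR : Finset (IrrCharacter G) := Finset.univ.filter (fun χ => charDegree (χ : G → ℂ) = 1 ∧ ∀ g, ((χ : G → ℂ) g).im = 0)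
  let XX : Finset (IrrCharacter G) := Finset.univ.filter (fun χ => IsX χ)
  have := Fintype.ofFinite (Lam G)
  have hLR : LR.card = Nat.card (Lam G) := by
    rw [Nat.card_eq_fintype_card, ← Finset.card_univ]
    symm
    refine Finset.card_bij (fun (l : Lam G) _ => (⟨fun g => (l.1 g : ℂ), isIrr_of_hom_units l.1⟩ : IrrCharacter G)) ?_ ?_ ?_
    · intro l _
      rw [Finset.mem_filter]
      refine ⟨Finset.mem_univ _, PRes.charDegree_eq (by
        show ((l.1 1 : ℂˣ) : ℂ) = ((1 : ℕ) : ℂ)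
        rw [map_one, Units.val_one, Nat.cast_one]), fun g => ?_⟩
      show ((l.1 g : ℂˣ) : ℂ).im = 0
      rcases pm_of_sq (Lam_sq l.2 g) with h | h <;> rw [h] <;> simp
    · intro l _ m _ h
      apply Subtype.ext
      ext g
      exact congrFun (congrArg Subtype.val h) g
    · intro χ hχ
      obtain ⟨-, hd, hr⟩ := Finset.mem_filter.mp hχ
      have hχ1 : (χ : G → ℂ) 1 = 1 := by rw [PRes.charDegree_cast (IsIrr.isCharacter χ.2), hd, Nat.cast_one]
      obtain ⟨f, hf⟩ := IsChar.hom_units_of_one (IsIrr.isCharacter χ.2) hχ1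
      refine ⟨⟨f, ?_⟩, Finset.mem_univ _, Subtype.ext (funext fun g => (hf g).symm)⟩
      rw [mem_Lam]
      ext g
      rw [MonoidHom.pow_apply, Units.val_pow_eq_pow_val, ← hf]
      show (χ : G → ℂ) g ^ 2 = ((1 : ℂˣ) : ℂ)
      have h3 : ‖(χ : G → ℂ) g‖ = 1 := by
        rw [hf]
        have : ((f g : ℂˣ) : ℂ) ^ Nat.card G = 1 := by
          rw [← Units.val_pow_eq_pow_val, ← map_pow, pow_card_eq_one', map_one, Units.val_one]
        exact norm_eq_one_of_pow Nat.card_pos.ne' this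
      have h4 : (χ : G → ℂ) g * conj ((χ : G → ℂ) g) = 1 := by
        rw [Complex.mul_conj, Complex.normSq_eq_norm_sq, h3]
        simp
      rw [Complex.conj_eq_iff_im.mpr (hr g)] at h4
      rw [sq, h4, Units.val_one]
  have hXX : Nat.card {χ : IrrCharacter G // IsX χ} = XX.card := by
    rw [Nat.card_eq_fintype_card, Fintype.card_subtype]
  -- evaluate the sum modulo 4
  have hdisj : Disjoint LR XX := by
    rw [Finset.disjoint_left]
    intro χ h h'
    have h3 := (Finset.mem_filter.mp h).2.1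
    have h4 := (Finset.mem_filter.mp h').2.1
    omega
  have hrest : (4 : ℤ) ∣ ∑ χ ∈ Finset.univ \ (LR ∪ XX), e χ * charDegree (χ : G → ℂ) := by
    apply Finset.dvd_sum
    intro χ hχ
    rw [Finset.mem_sdiff, Finset.mem_union, not_or] at hχ
    obtain ⟨-, h3, h4⟩ := hχ
    by_cases hr : ∀ g, ((χ : G → ℂ) g).im = 0
    · obtain ⟨k, hk⟩ := deg_pow hG χ
      have h5 : charDegree (χ : G → ℂ) ≠ 1 := fun h => h3 (Finset.mem_filter.mpr ⟨Finset.mem_univ _, h, hr⟩)
      have h6 : charDegree (χ : G → ℂ) ≠ 2 := fun h => h4 (Finset.mem_filter.mpr ⟨Finset.mem_univ _, h, hr⟩)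
      have h7 : 2 ≤ k := by
        by_contra hcon
        have : k = 0 ∨ k = 1 := by omega
        rcases this with rfl | rfl
        · exact h5 (by rw [hk, pow_zero])
        · exact h6 (by rw [hk, pow_one])
      apply Dvd.dvd.mul_left
      rw [hk]
      have h8 : (4 : ℕ) ∣ 2 ^ k := pow_dvd_pow 2 h7
      exact_mod_cast h8
    · rw [he3 χ hr, zero_mul]
      exact dvd_zero _
  have hsum : ∑ χ : IrrCharacter G, e χ * charDegree (χ : G → ℂ) =
      ∑ χ ∈ LR, e χ * charDegree (χ : G → ℂ) + ∑ χ ∈ XX, e χ * charDegree (χ : G → ℂ) + ∑ χ ∈ Finset.univ \ (LR ∪ XX), e χ * charDegree (χ : G → ℂ) := by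
    rw [← Finset.sum_union hdisj, add_comm, Finset.sum_sdiff (Finset.subset_univ _)]
  have hLRs : ∑ χ ∈ LR, e χ * (charDegree (χ : G → ℂ) : ℤ) = LR.card := by
    rw [Finset.sum_congr rfl (g := fun _ => (1 : ℤ)) (fun χ hχ => ?_), Finset.sum_const, nsmul_eq_mul, mul_one]
    obtain ⟨-, hd, hr⟩ := Finset.mem_filter.mp hχ
    rw [hd, Nat.cast_one, mul_one]
    -- `ν = 1` for a real linear character
    have hχ1 : (χ : G → ℂ) 1 = 1 := by rw [PRes.charDegree_cast (IsIrr.isCharacter χ.2), hd, Nat.cast_one]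
    obtain ⟨f, hf⟩ := IsChar.hom_units_of_one (IsIrr.isCharacter χ.2) hχ1
    have h3 : nu (χ : G → ℂ) = 1 := by
      rw [nu]
      have h4 : ∀ g, (χ : G → ℂ) (g * g) = 1 := by
        intro g
        have h5 : ‖(χ : G → ℂ) g‖ = 1 := by
          rw [hf]
          have : ((f g : ℂˣ) : ℂ) ^ Nat.card G = 1 := by
            rw [← Units.val_pow_eq_pow_val, ← map_pow, pow_card_eq_one', map_one, Units.val_one]
          exact norm_eq_one_of_pow Nat.card_pos.ne' this
        have h6 : (χ : G → ℂ) g * conj ((χ : G → ℂ) g) = 1 := by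
          rw [Complex.mul_conj, Complex.normSq_eq_norm_sq, h5]
          simp
        rw [Complex.conj_eq_iff_im.mpr (hr g)] at h6
        rw [hf, map_mul, Units.val_mul, ← hf, h6]
      rw [Finset.sum_congr rfl fun g _ => h4 g, Finset.sum_const, Finset.card_univ, nsmul_eq_mul, mul_one, Nat.card_eq_fintype_card]
      exact inv_mul_cancel₀ (by exact_mod_cast Fintype.card_ne_zero)
    rw [he1] at h3
    exact_mod_cast h3
  have hXXs : ∑ χ ∈ XX, e χ * (charDegree (χ : G → ℂ) : ℤ) = 2 * ∑ χ ∈ XX, e χ := by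
    rw [Finset.mul_sum]
    refine Finset.sum_congr rfl fun χ hχ => ?_
    rw [(Finset.mem_filter.mp hχ).2.1]
    push_cast
    ring
  have hpar : (2 : ℤ) ∣ ∑ χ ∈ XX, e χ - XX.card := by
    have h3 : ∑ χ ∈ XX, e χ - (XX.card : ℤ) = ∑ χ ∈ XX, (e χ - 1) := by
      rw [Finset.sum_sub_distrib, Finset.sum_const, nsmul_eq_mul, mul_one]
    rw [h3]
    apply Finset.dvd_sum
    intro χ hχ
    rcases he4 χ (Finset.mem_filter.mp hχ).2.2 with h | h <;> rw [h] <;> norm_num
  have h4 := four_dvd hG hnc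
  rw [← hLR] at h4
  rw [hsum, hLRs, hXXs] at h2
  rw [hXX, ← Nat.not_even_iff_odd]
  rintro ⟨c, hc⟩
  obtain ⟨r, hr⟩ := hrest
  obtain ⟨s, hs⟩ := hpar
  obtain ⟨u, hu⟩ := h4
  rw [hr, hu] at h2
  rw [hc] at hs
  push_cast at h2 hs
  omega

/-- fixed points -/
def IsF (χ : IrrCharacter G) : Prop := IsX χ ∧ ∀ l ∈ Lam G, tw l χ = χ

theorem odd_F (hG : IsPGroup 2 G) (hnc : ¬ IsCyclic G) (ht : Nat.card {x : G // orderOf x = 2} % 4 = 1) :
    Odd (Nat.card {χ : IrrCharacter G // IsF χ}) := by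
  classical
  have : Fact (Nat.Prime 2) := ⟨Nat.prime_two⟩
  have hp : IsPGroup 2 (Lam G) := fun l => ⟨1, by
    rw [pow_one]
    exact Subtype.ext (mem_Lam.mp l.2)⟩
  have h1 := hp.card_modEq_card_fixedPoints {χ : IrrCharacter G // IsX χ}
  have h2 := odd_X hG hnc ht
  have h3 : Nat.card (MulAction.fixedPoints (Lam G) {χ : IrrCharacter G // IsX χ}) = Nat.card {χ : IrrCharacter G // IsF χ} := by
    refine Nat.card_congr ⟨fun χ => ⟨χ.1.1, χ.1.2, fun l hl => ?_⟩, fun χ => ⟨⟨χ.1, χ.2.1⟩, fun l => Subtype.ext (χ.2.2 l.1 l.2)⟩, fun _ => rfl, fun _ => rfl⟩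
    exact congrArg Subtype.val (χ.2 ⟨l, hl⟩)
  rw [h3] at h1
  rw [Nat.odd_iff] at h2 ⊢
  rw [← h2]
  exact h1.symm

theorem F_props (hG : IsPGroup 2 G) (hnc : ¬ IsCyclic G) {χ : IrrCharacter G} (hχ : IsF χ) :
    Nat.card (Lam G) = 4 ∧ (∀ g : G, (∀ l ∈ Lam G, l g = 1) → (χ : G → ℂ) g ≠ 0) ∧
      ∀ g : G, ¬ (∀ l ∈ Lam G, l g = 1) → (χ : G → ℂ) g = 0 := by
  classical
  have := Fintype.ofFinite (Lam G)
  have hχc := IsIrr.isCharacter χ.2
  have hχ1 : (χ : G → ℂ) 1 = ((2 : ℕ) : ℂ) := by rw [PRes.charDegree_cast hχc, hχ.1.1]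
  have hvan : ∀ g : G, ¬ (∀ l ∈ Lam G, l g = 1) → (χ : G → ℂ) g = 0 := by
    intro g hg
    push Not at hg
    obtain ⟨l, hl, hlg⟩ := hg
    have h1 := congrFun (congrArg Subtype.val (hχ.2 l hl)) g
    have h1' : ((l g : ℂˣ) : ℂ) * (χ : G → ℂ) g = (χ : G → ℂ) g := h1
    rcases pm_of_sq (Lam_sq hl g) with h | h
    · exact absurd (Units.ext h) hlg
    · rw [h, neg_one_mul] at h1'
      have h2 : (2 : ℂ) * (χ : G → ℂ) g = 0 := by linear_combination -h1'
      exact (mul_eq_zero.mp h2).resolve_left two_ne_zero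
  let Φ : Finset G := Finset.univ.filter (fun g => ∀ l ∈ Lam G, l g = 1)
  -- `|Λ| |Φ| = |G|`
  have hcard : Nat.card (Lam G) * Φ.card = Nat.card G := by
    have h1 : ∑ g : G, ∑ l : Lam G, ((l.1 g : ℂˣ) : ℂ) = (Nat.card (Lam G) * Φ.card : ℕ) := by
      have h2 : ∀ g : G, ∑ l : Lam G, ((l.1 g : ℂˣ) : ℂ) = if (∀ l ∈ Lam G, l g = 1) then (Nat.card (Lam G) : ℂ) else 0 := by
        intro g
        by_cases hg : ∀ l ∈ Lam G, l g = 1
        · rw [if_pos hg, Finset.sum_congr rfl (g := fun _ => (1 : ℂ)) (fun l _ => by rw [hg l.1 l.2, Units.val_one]), Finset.sum_const,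
            Finset.card_univ, nsmul_eq_mul, mul_one, Nat.card_eq_fintype_card]
        · rw [if_neg hg]
          push Not at hg
          obtain ⟨m, hm, hmg⟩ := hg
          have hmg' : ((m g : ℂˣ) : ℂ) ≠ 1 := fun h => hmg (Units.ext h)
          have h3 : ((m g : ℂˣ) : ℂ) * ∑ l : Lam G, ((l.1 g : ℂˣ) : ℂ) = ∑ l : Lam G, ((l.1 g : ℂˣ) : ℂ) := by
            rw [Finset.mul_sum]
            refine Fintype.sum_equiv (Equiv.mulLeft (⟨m, hm⟩ : Lam G)) _ _ fun l => ?_
            show _ = (((m * l.1) g : ℂˣ) : ℂ)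
            rw [MonoidHom.mul_apply, Units.val_mul]
          have h4 : (((m g : ℂˣ) : ℂ) - 1) * ∑ l : Lam G, ((l.1 g : ℂˣ) : ℂ) = 0 := by linear_combination h3
          exact (mul_eq_zero.mp h4).resolve_left (sub_ne_zero.mpr hmg')
      rw [Finset.sum_congr rfl fun g _ => h2 g, ← Finset.sum_filter, Finset.sum_const, nsmul_eq_mul]
      push_cast
      ring
    have h2 : ∑ g : G, ∑ l : Lam G, ((l.1 g : ℂˣ) : ℂ) = Nat.card G := by
      rw [Finset.sum_comm, Finset.sum_eq_single (1 : Lam G)]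
      · rw [Finset.sum_congr rfl (g := fun _ => (1 : ℂ)) (fun g _ => by
          show (((1 : G →* ℂˣ) g : ℂˣ) : ℂ) = 1
          rw [MonoidHom.one_apply, Units.val_one]), Finset.sum_const, Finset.card_univ, nsmul_eq_mul, mul_one, Nat.card_eq_fintype_card]
      · intro l _ hl
        have h3 : (fun g => ((l.1 g : ℂˣ) : ℂ)) ≠ fun _ => 1 := by
          intro h
          apply hl
          apply Subtype.ext
          ext g
          rw [congrFun h g]
          rfl
        have h4 := ci_irr_ne (isIrr_of_hom_units l.1) isIrr_one h3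
        rw [classInner] at h4
        have h5 := (mul_eq_zero.mp h4).resolve_left (inv_ne_zero card_cast_ne_zero)
        rw [← h5]
        exact Finset.sum_congr rfl fun g _ => by rw [map_one, mul_one]
      · intro h
        exact absurd (Finset.mem_univ _) h
    rw [h1] at h2
    exact_mod_cast h2
  have hnorm : ∑ g ∈ Φ, ‖(χ : G → ℂ) g‖ ^ 2 = Nat.card G := by
    have h7 := ci_irr_self χ.2
    rw [classInner, inv_mul_eq_one₀ card_cast_ne_zero] at h7
    have h8 : (((∑ g : G, ‖(χ : G → ℂ) g‖ ^ 2 : ℝ)) : ℂ) = ((Nat.card G : ℝ) : ℂ) := by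
      push_cast
      rw [h7]
      exact Finset.sum_congr rfl fun g _ => by rw [Complex.mul_conj, Complex.normSq_eq_norm_sq]; push_cast; rfl
    have h9 : ∑ g : G, ‖(χ : G → ℂ) g‖ ^ 2 = Nat.card G := by exact_mod_cast h8
    rw [← h9]
    apply Finset.sum_subset (Finset.filter_subset _ _)
    intro g _ hg
    rw [hvan g (fun h => hg (Finset.mem_filter.mpr ⟨Finset.mem_univ _, h⟩)), norm_zero]
    norm_num
  have hle : ∀ g, ‖(χ : G → ℂ) g‖ ^ 2 ≤ 4 := by
    intro g
    have h1 := IsChar.norm_le hχc g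
    rw [hχ1, Complex.natCast_re] at h1
    have h2 := norm_nonneg ((χ : G → ℂ) g)
    push_cast at h1
    nlinarith
  have h4 := four_dvd hG hnc
  obtain ⟨c, hc⟩ := h4
  have hΦ : 0 < Φ.card := by
    rw [Finset.card_pos]
    exact ⟨1, Finset.mem_filter.mpr ⟨Finset.mem_univ _, fun l _ => map_one l⟩⟩
  have hcpos : 0 < c := by
    rw [Nat.pos_iff_ne_zero]
    rintro rfl
    have : 0 < Nat.card (Lam G) := Nat.card_pos
    omega
  have hsum4 : ∑ g ∈ Φ, ‖(χ : G → ℂ) g‖ ^ 2 ≤ 4 * Φ.card := by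
    calc ∑ g ∈ Φ, ‖(χ : G → ℂ) g‖ ^ 2 ≤ ∑ g ∈ Φ, (4 : ℝ) := Finset.sum_le_sum fun g _ => hle g
      _ = _ := by rw [Finset.sum_const, nsmul_eq_mul, mul_comm]
  have hc1 : c = 1 := by
    have h5 : (Nat.card G : ℝ) ≤ 4 * Φ.card := hnorm ▸ hsum4
    rw [← hcard, hc] at h5
    have h6 : 4 * c * Φ.card ≤ 4 * Φ.card := by exact_mod_cast h5
    have h7 : c ≤ 1 := by
      by_contra hcon
      have : 2 ≤ c := by omega
      nlinarith
    omega
  refine ⟨by rw [hc, hc1], ?_, hvan⟩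
  intro g hg h0
  have hgΦ : g ∈ Φ := Finset.mem_filter.mpr ⟨Finset.mem_univ _, hg⟩
  have h5 : ∑ g ∈ Φ, ‖(χ : G → ℂ) g‖ ^ 2 < ∑ g ∈ Φ, (4 : ℝ) := by
    apply Finset.sum_lt_sum (fun g _ => hle g)
    exact ⟨g, hgΦ, by rw [h0, norm_zero]; norm_num⟩
  rw [hnorm, Finset.sum_const, nsmul_eq_mul, ← hcard, hc, hc1] at h5
  push_cast at h5
  linarith

theorem main (hG : IsPGroup 2 G) (ht : Nat.card {x : G // orderOf x = 2} % 4 = 1) : IsCyclic G ∨ (commutator G).index = 4 := by
  classical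
  have : Fact (Nat.Prime 2) := ⟨Nat.prime_two⟩
  by_cases hnc : IsCyclic G
  · exact Or.inl hnc
  right
  have hodd := odd_F hG hnc ht
  have hpos : 0 < Nat.card {χ : IrrCharacter G // IsF χ} := hodd.pos
  obtain ⟨χ₀⟩ : Nonempty {χ : IrrCharacter G // IsF χ} := (Nat.card_pos_iff.mp hpos).1
  obtain ⟨h4, -, -⟩ := F_props hG hnc χ₀.2
  rw [← card_hom, ← h4]
  -- every linear character is real
  have hall : ∀ a : G →* ℂˣ, a ∈ Lam G := by
    by_contra hcon
    push Not at hcon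
    obtain ⟨a, ha⟩ := hcon
    -- an element of order 4
    obtain ⟨b, hb1, hb2⟩ : ∃ b : G →* ℂˣ, b ^ 2 ∈ Lam G ∧ b ∉ Lam G := by
      obtain ⟨n, hn⟩ := IsPGroup.iff_card.mp hG
      have hex : ∃ k, a ^ (2 ^ k) ∈ Lam G := by
        refine ⟨n, ?_⟩
        have : a ^ (2 ^ n) = 1 := by
          rw [← hn]
          ext g
          rw [MonoidHom.pow_apply, ← map_pow, pow_card_eq_one', map_one]
          rfl
        rw [this]
        exact one_mem _
      obtain ⟨hk, hmin⟩ := Nat.find_spec hex, fun m hm => Nat.find_min hex (m := m) hm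
      have hk0 : Nat.find hex ≠ 0 := by
        intro h
        have := Nat.find_spec hex
        rw [h, pow_zero, pow_one] at this
        exact ha this
      refine ⟨a ^ (2 ^ (Nat.find hex - 1)), ?_, Nat.find_min hex (by omega)⟩
      rw [← pow_mul, ← pow_succ, Nat.sub_add_cancel (Nat.pos_of_ne_zero hk0)]
      exact Nat.find_spec hex
    have hb2' : b ^ 2 ≠ 1 := fun h => hb2 (mem_Lam.mpr h)
    obtain ⟨g, hg⟩ : ∃ g, (b ^ 2) g ≠ 1 := by
      by_contra hcon
      push Not at hcon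
      exact hb2' (MonoidHom.ext hcon)
    have hg0 : ∀ l ∈ Lam G, l (g ^ 2) = 1 := by
      intro l hl
      rw [map_pow]
      exact Units.ext (by rw [Units.val_pow_eq_pow_val, Lam_sq hl g, Units.val_one])
    have hbg : b (g ^ 2) ≠ 1 := by
      rw [map_pow]
      exact hg
    have hbr : ∀ x : G, (∀ l ∈ Lam G, l x = 1) → ((b x : ℂˣ) : ℂ) = 1 ∨ ((b x : ℂˣ) : ℂ) = -1 := by
      intro x hx
      apply pm_of_sq
      have := hx _ hb1
      rw [MonoidHom.pow_apply] at this
      rw [← Units.val_pow_eq_pow_val, this, Units.val_one]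
    have hF : ∀ χ : IrrCharacter G, IsF χ → IsF (tw b χ) := by
      intro χ hχ
      obtain ⟨-, -, hv⟩ := F_props hG hnc hχ
      refine ⟨⟨by rw [tw_deg, hχ.1.1], fun x => ?_⟩, fun l hl => ?_⟩
      · rw [tw_apply]
        by_cases hx : ∀ l ∈ Lam G, l x = 1
        · rcases hbr x hx with h | h
          · rw [h, one_mul]; exact hχ.1.2 x
          · rw [h, neg_one_mul, Complex.neg_im, hχ.1.2 x, neg_zero]
        · rw [hv x hx, mul_zero, Complex.zero_im]
      · have hlb : l * b = b * l := by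
          apply MonoidHom.ext
          intro x
          rw [MonoidHom.mul_apply, MonoidHom.mul_apply, mul_comm]
        rw [← tw_mul, hlb, tw_mul, hχ.2 l hl]
    let f : Function.End {χ : IrrCharacter G // IsF χ} := fun χ => ⟨tw b χ.1, hF χ.1 χ.2⟩
    have hff : f ^ 2 ^ 1 = 1 := by
      funext χ
      rw [pow_one, pow_two]
      apply Subtype.ext
      show tw b (tw b χ.1) = χ.1
      have hbb : b * b = b ^ 2 := by
        apply MonoidHom.ext
        intro x
        rw [MonoidHom.mul_apply, MonoidHom.pow_apply, pow_two]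
      rw [← tw_mul, hbb]
      exact χ.2.2 _ hb1
    have := Fintype.ofFinite {χ : IrrCharacter G // IsF χ}
    have h5 := Equiv.Perm.card_fixedPoints_modEq hff
    have h6 : IsEmpty f.fixedPoints := by
      constructor
      rintro ⟨χ, hχ⟩
      have h7 := congrFun (congrArg Subtype.val (congrArg Subtype.val hχ)) (g ^ 2)
      have h7' : ((b (g ^ 2) : ℂˣ) : ℂ) * (χ.1 : G → ℂ) (g ^ 2) = (χ.1 : G → ℂ) (g ^ 2) := h7
      obtain ⟨-, hv, -⟩ := F_props hG hnc χ.2
      have h8 := hv (g ^ 2) hg0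
      apply hbg
      apply Units.ext
      rw [Units.val_one]
      exact mul_right_cancel₀ h8 (h7'.trans (one_mul _).symm)
    rw [Fintype.card_eq_zero_iff.mpr h6] at h5
    rw [Nat.card_eq_fintype_card, Nat.odd_iff] at hodd
    have h9 : Fintype.card {χ : IrrCharacter G // IsF χ} % 2 = 0 % 2 := h5
    omega
  have htop : Lam G = ⊤ := by
    rw [eq_top_iff]
    intro a _
    exact hall a
  rw [htop, Subgroup.card_top]

end Main

end Cfsg.Agent.H3.AFT
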