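import Mathlib
import Cfsg.Agent.H3_P4

/-!
# Normal subgroups of index `p`: the order of the derived subgroup
-/

set_option autoImplicit false

open scoped commutatorElement

namespace Cfsg.Agent.H3.AbIdx

open Subgroup

universe u

variable {P : Type u} [Group P] (N : Subgroup P) [hN : N.Normal] (x : P)

/-- the homomorphism `n ↦ [x, n]` to the abelianization -/
noncomputable def φ : N →* Abelianization N := (Abelianization.of.comp (MulAut.conjNormal x).toMonoidHom) / Abelianization.of

theorem φ_apply (n : N) : φ N x n = Abelianization.of (MulAut.conjNormal x n * n⁻¹) := by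
  rw [φ, MonoidHom.div_apply, map_mul, map_inv, div_eq_mul_inv]; rfl

theorem of_eq_one (n : N) : Abelianization.of n = 1 ↔ n ∈ commutator N := QuotientGroup.eq_one_iff n

theorem of_eq (a b : N) : Abelianization.of a = Abelianization.of b ↔ ∃ m ∈ commutator N, a = b * m := by
  rw [Abelianization.of]
  constructor
  · intro h
    have h1 : b⁻¹ * a ∈ commutator N := QuotientGroup.eq.mp h.symm
    exact ⟨_, h1, by group⟩
  · rintro ⟨m, hm, rfl⟩
    exact (QuotientGroup.eq.mpr (by simpa using hm)).symm

theorem mem_ker (n : N) : n ∈ (φ N x).ker ↔ x * n * x⁻¹ * (n : P)⁻¹ ∈ (commutator N).map N.subtype := by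
  rw [MonoidHom.mem_ker, φ_apply, of_eq_one]
  constructor
  · intro h
    exact ⟨_, h, by simp⟩
  · rintro ⟨m, hm, hm'⟩
    have : m = MulAut.conjNormal x n * n⁻¹ := Subtype.ext (by simpa using hm')
    rwa [← this]

/-- the preimage of the image -/
noncomputable def L : Subgroup N := (φ N x).range.comap Abelianization.of

theorem mem_L (l : N) : l ∈ L N x ↔ ∃ n : N, ∃ m ∈ commutator N, l = MulAut.conjNormal x n * n⁻¹ * m := by
  rw [L, mem_comap, MonoidHom.mem_range]
  constructor
  · rintro ⟨n, hn⟩
    rw [φ_apply] at hn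
    obtain ⟨m, hm, h⟩ := (of_eq N _ _).mp hn.symm
    exact ⟨n, m, hm, h⟩
  · rintro ⟨n, m, hm, rfl⟩
    exact ⟨n, by rw [φ_apply]; exact ((of_eq N _ _).mpr ⟨m, hm, rfl⟩).symm⟩

theorem conj_mem_commutator {m : N} (hm : m ∈ commutator N) (g : P) : MulAut.conjNormal g m ∈ commutator N := by
  have h1 : (commutator N).map (MulAut.conjNormal g : N ≃* N).toMonoidHom = commutator N :=
    characteristic_iff_map_eq.mp inferInstance _
  rw [← h1]
  exact ⟨m, hm, rfl⟩

theorem card_formula [Finite P] : Nat.card N * Nat.card (commutator N) = Nat.card (φ N x).ker * Nat.card (L N x) := by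
  have h1 : Nat.card (φ N x).ker * Nat.card (φ N x).range = Nat.card N := by
    rw [← Subgroup.index_ker, Subgroup.card_mul_index]
  have h2 : (L N x).index = (φ N x).range.index := Subgroup.index_comap_of_surjective _ (QuotientGroup.mk'_surjective _)
  have h3 := (L N x).card_mul_index
  have h4 := (φ N x).range.card_mul_index
  have h5 : Nat.card (commutator N) * Nat.card (Abelianization N) = Nat.card N := (commutator N).card_mul_index
  rw [h2] at h3
  have h6 : 0 < (φ N x).range.index := Nat.pos_of_ne_zero Subgroup.index_ne_zero_of_finite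
  apply Nat.eq_of_mul_eq_mul_right h6
  calc Nat.card N * Nat.card (commutator N) * (φ N x).range.index
      = (Nat.card (φ N x).ker * Nat.card (φ N x).range) * Nat.card (commutator N) * (φ N x).range.index := by rw [h1]
    _ = Nat.card (φ N x).ker * (Nat.card (commutator N) * (Nat.card (φ N x).range * (φ N x).range.index)) := by ring
    _ = Nat.card (φ N x).ker * Nat.card N := by rw [h4, h5]
    _ = _ := by rw [← h3]; ring

theorem L_eq (hx : N ⊔ zpowers x = ⊤) : (L N x).map N.subtype = commutator P := by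
  let K := (L N x).map N.subtype
  have hKN : K ≤ N := by rintro _ ⟨l, -, rfl⟩; exact l.2
  have hcK : ∀ m : N, m ∈ commutator N → (m : P) ∈ K := by
    intro m hm
    exact ⟨m, (mem_L N x m).mpr ⟨1, m, hm, by simp⟩, rfl⟩
  have hNN : ∀ a ∈ N, ∀ b ∈ N, a * b * a⁻¹ * b⁻¹ ∈ K := by
    intro a ha b hb
    have h1 : ⁅(⟨a, ha⟩ : N), (⟨b, hb⟩ : N)⁆ ∈ commutator N := commutator_mem_commutator (mem_top _) (mem_top _)
    exact hcK _ h1
  have hxN : ∀ n : N, x * n * x⁻¹ * (n : P)⁻¹ ∈ K := by
    intro n
    exact ⟨MulAut.conjNormal x n * n⁻¹, (mem_L N x _).mpr ⟨n, 1, one_mem _, by simp⟩, by simp⟩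
  have hconj : ∀ g : P, (∀ n : N, g * (x * n * x⁻¹) * g⁻¹ = x * (g * n * g⁻¹) * x⁻¹) → ∀ k ∈ K, g * k * g⁻¹ ∈ K := by
    intro g hg k hk
    obtain ⟨l, hl, rfl⟩ := hk
    obtain ⟨n, m, hm, rfl⟩ := (mem_L N x l).mp hl
    refine ⟨MulAut.conjNormal x (MulAut.conjNormal g n) * (MulAut.conjNormal g n)⁻¹ * MulAut.conjNormal g m,
      (mem_L N x _).mpr ⟨_, _, conj_mem_commutator N hm g, rfl⟩, ?_⟩
    simp only [Subgroup.coe_subtype, Subgroup.coe_mul, MulAut.conjNormal_apply, Subgroup.coe_inv]
    rw [← hg n]
    group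
  have hKn : K.Normal := by
    have h1 : normalizer (K : Set P) = ⊤ := by
      rw [eq_top_iff, ← hx]
      refine sup_le ?_ ?_
      · intro a ha
        rw [mem_normalizer_iff]
        have key : ∀ a ∈ N, ∀ k ∈ K, a * k * a⁻¹ ∈ K := by
          intro a ha k hk
          have h2 := hNN a ha k (hKN hk)
          have h3 := K.mul_mem h2 hk
          rwa [inv_mul_cancel_right] at h3
        intro k
        constructor
        · exact key a ha k
        · intro h
          have h2 := key a⁻¹ (N.inv_mem ha) _ h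
          have h3 : a⁻¹ * (a * k * a⁻¹) * a⁻¹⁻¹ = k := by group
          rwa [h3] at h2
      · rw [zpowers_le, mem_normalizer_iff]
        intro k
        constructor
        · exact hconj x (fun n => by group) k
        · intro h
          have h2 := hconj x⁻¹ (fun n => by group) _ h
          have h3 : x⁻¹ * (x * k * x⁻¹) * x⁻¹⁻¹ = k := by group
          rwa [h3] at h2
    exact normalizer_eq_top_iff.mp h1
  apply le_antisymm
  · rintro _ ⟨l, hl, rfl⟩
    obtain ⟨n, m, hm, rfl⟩ := (mem_L N x l).mp hl
    rw [coe_subtype, coe_mul, coe_mul, MulAut.conjNormal_apply, coe_inv]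
    refine mul_mem ?_ ?_
    · exact commutator_mem_commutator (mem_top x) (mem_top (n : P))
    · have h1 : (commutator N).map N.subtype ≤ commutator P := by
        rw [_root_.commutator_def, _root_.commutator_def, map_commutator]
        exact commutator_mono le_top le_top
      exact h1 ⟨m, hm, rfl⟩
  · let q := QuotientGroup.mk' K
    have hq : Function.Surjective q := QuotientGroup.mk'_surjective K
    have hcomm : ∀ a b : P, a * b * a⁻¹ * b⁻¹ ∈ K → q a * q b = q b * q a := by
      intro a b hab
      have h1 : q (a * b * a⁻¹ * b⁻¹) = 1 := (QuotientGroup.eq_one_iff _).mpr hab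
      rw [map_mul, map_mul, map_mul, map_inv, map_inv] at h1
      rw [mul_inv_eq_one, mul_inv_eq_iff_eq_mul] at h1
      exact h1
    have hsup : (N ⊔ zpowers x).map q = ⊤ := by rw [hx]; exact map_top_of_surjective q hq
    have h1 : ∀ n ∈ N, ∀ y : P ⧸ K, y * q n = q n * y := by
      intro n hn y
      have h2 : (⊤ : Subgroup (P ⧸ K)) ≤ centralizer {q n} := by
        rw [← hsup, Subgroup.map_sup]
        refine sup_le ?_ ?_
        · rintro _ ⟨a, ha, rfl⟩
          rw [mem_centralizer_singleton_iff]
          exact hcomm a n (hNN a ha n hn)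
        · rw [MonoidHom.map_zpowers, zpowers_le, mem_centralizer_singleton_iff]
          exact hcomm x n (hxN ⟨n, hn⟩)
      exact mem_centralizer_singleton_iff.mp (h2 (mem_top y))
    have h3 : ∀ y : P ⧸ K, y * q x = q x * y := by
      intro y
      have h2 : (⊤ : Subgroup (P ⧸ K)) ≤ centralizer {q x} := by
        rw [← hsup, Subgroup.map_sup]
        refine sup_le ?_ ?_
        · rintro _ ⟨a, ha, rfl⟩
          rw [mem_centralizer_singleton_iff]
          exact (h1 a ha (q x)).symm
        · rw [MonoidHom.map_zpowers, zpowers_le, mem_centralizer_singleton_iff]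
      exact mem_centralizer_singleton_iff.mp (h2 (mem_top y))
    have h4 : (⊤ : Subgroup (P ⧸ K)) ≤ center (P ⧸ K) := by
      rw [← hsup, Subgroup.map_sup]
      refine sup_le ?_ ?_
      · rintro _ ⟨a, ha, rfl⟩
        rw [mem_center_iff]
        exact h1 a ha
      · rw [MonoidHom.map_zpowers, zpowers_le, mem_center_iff]
        exact h3
    rw [_root_.commutator_def, commutator_le]
    intro a _ b _
    rw [← QuotientGroup.eq_one_iff]
    have : ((⁅a, b⁆ : P) : P ⧸ K) = ⁅(a : P ⧸ K), (b : P ⧸ K)⁆ := rfl
    rw [this, commutatorElement_eq_one_iff_mul_comm]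
    exact mem_center_iff.mp (h4 (mem_top _)) _

theorem key [Finite P] {p : ℕ} (hp : p.Prime) (hi : N.index = p) (hx : N ⊔ zpowers x = ⊤) : (commutator P).index = p ^ 2 ↔
    Nat.card {n : N // x * n * x⁻¹ * (n : P)⁻¹ ∈ (commutator N).map N.subtype} = p * Nat.card (commutator N) := by
  have h1 := card_formula N x
  have h2 : Nat.card (L N x) = Nat.card (commutator P) := by
    rw [← L_eq N x hx]
    exact (Nat.card_congr ((L N x).equivMapOfInjective _ N.subtype_injective).toEquiv)
  have h3 : Nat.card (φ N x).ker = Nat.card {n : N // x * n * x⁻¹ * (n : P)⁻¹ ∈ (commutator N).map N.subtype} :=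
    Nat.card_congr (Equiv.subtypeEquivRight fun n => mem_ker N x n)
  rw [h2, h3] at h1
  have h4 := (commutator P).card_mul_index
  have h5 := N.card_mul_index
  rw [hi] at h5
  have c1 : 0 < Nat.card (commutator P) := Nat.card_pos
  have c2 : 0 < Nat.card (commutator N) := Nat.card_pos
  generalize Nat.card {n : N // x * n * x⁻¹ * (n : P)⁻¹ ∈ (commutator N).map N.subtype} = c at h1 ⊢
  constructor
  · intro h
    rw [h, ← h5] at h4
    have h6 : Nat.card N = Nat.card (commutator P) * p := by
      apply Nat.eq_of_mul_eq_mul_right hp.pos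
      rw [← h4]; ring
    rw [h6] at h1
    apply Nat.eq_of_mul_eq_mul_right c1
    rw [← h1]; ring
  · intro h
    rw [h] at h1
    have h6 : Nat.card N = p * Nat.card (commutator P) := by
      apply Nat.eq_of_mul_eq_mul_right c2
      rw [h1]; ring
    rw [h6] at h5
    apply Nat.eq_of_mul_eq_mul_left c1
    rw [h4, ← h5]; ring

theorem sup_eq_top [Finite P] {p : ℕ} (hp : p.Prime) (hi : N.index = p) {x : P} (hx : x ∉ N) : N ⊔ zpowers x = ⊤ := by
  have h1 : N < N ⊔ zpowers x := lt_of_le_of_ne le_sup_left (fun h => hx (by rw [h]; exact (le_sup_right : zpowers x ≤ _) (mem_zpowers x)))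
  have h2 : (N ⊔ zpowers x).index ∣ p := hi ▸ index_dvd_of_le h1.le
  rcases (Nat.dvd_prime hp).mp h2 with h | h
  · exact index_eq_one.mp h
  · exfalso
    have h3 := N.card_mul_index
    have h4 := (N ⊔ zpowers x).card_mul_index
    rw [hi] at h3
    rw [h, ← h3] at h4
    have h5 := Nat.eq_of_mul_eq_mul_right hp.pos h4
    have h6 := Cfsg.Agent.H2.Card.card_lt_of_lt h1
    omega

end Cfsg.Agent.H3.AbIdx
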