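import Mathlib
import Cfsg.Agent.H3_InvCount2
import Cfsg.Agent.H3_DefectZero

/-!
# Characters of defect zero for 2 and for the odd primes `p` with an element of order `2p`
-/

set_option autoImplicit false

open scoped ComplexConjugate

namespace Cfsg.Agent.H3.DefTwo

open Cfsg Cfsg.Agent.H3.CharBasic Cfsg.Agent.H3.CharIrr Cfsg.Agent.H3.CharComplete
  Cfsg.Agent.H3.CharInd Cfsg.Agent.H3.InvCount

variable {G : Type*} [Group G] [Fintype G]

/-- a character whose degree is divisible by the full power of `p` vanishes on `p`-singular elements -/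
theorem vanish' {p : ℕ} (hp : p.Prime) {χ : G → ℂ} (hχ : IsIrrCharacter G χ) (hdvd : p ^ (Nat.card G).factorization p ∣ charDegree χ)
    {x : G} (hx : p ∣ orderOf x) : χ x = 0 := by
  have hG : Nat.card G ≠ 0 := Nat.card_pos.ne'
  have h1 : p ∣ Nat.card G := hx.trans (orderOf_dvd_natCard x)
  have h2 : 0 < (Nat.card G).factorization p := hp.factorization_pos_of_dvd hG h1
  obtain ⟨d, hd⟩ := hdvd
  refine DefectZero.vanish hp (Nat.ordProj_mul_ordCompl_eq_self (Nat.card G) p).symm ⟨(Nat.card G).factorization p - 1, ?_⟩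
    (Nat.not_dvd_ordCompl hp hG) hχ (d := d) ?_ hx
  · congr 1
    omega
  · rw [PRes.charDegree_cast (IsIrr.isCharacter hχ), hd]

/-- squaring is bijective in a group of odd order -/
theorem unique_sqrt {H : Type*} [Group H] [Finite H] (hodd : Odd (Nat.card H)) (y : H) : ∃! x : H, x * x = y := by
  obtain ⟨k, hk⟩ := hodd
  have hinv : ∀ x : H, (x * x) ^ (k + 1) = x := by
    intro x
    rw [← sq, ← pow_mul, show 2 * (k + 1) = Nat.card H + 1 by omega, pow_add, pow_card_eq_one', one_mul, pow_one]
  refine ⟨y ^ (k + 1), ?_, fun x hx => ?_⟩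
  · show y ^ (k + 1) * y ^ (k + 1) = y
    rw [← pow_add, show k + 1 + (k + 1) = Nat.card H + 1 by omega, pow_add, pow_card_eq_one', one_mul, pow_one]
  · rw [← hx, hinv]

theorem main (heven : Even (Nat.card G)) {χ : G → ℂ} (hχ : IsIrrCharacter G χ)
    (h2 : 2 ^ (Nat.card G).factorization 2 ∣ charDegree χ)
    (hp : ∀ p : ℕ, p.Prime → p ≠ 2 → (∃ g : G, orderOf g = 2 * p) → p ^ (Nat.card G).factorization p ∣ charDegree χ) :
    (∀ s t : G, orderOf s = 2 → orderOf t = 2 → IsConj s t) ∧
      (∀ s : G, orderOf s = 2 → Nat.card (Subgroup.centralizer ({s} : Set G)) = charDegree χ ∧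
        (Nat.card (Subgroup.centralizer ({s} : Set G))).Coprime (Subgroup.centralizer ({s} : Set G)).index) ∧
      (Nat.card G : ℂ)⁻¹ * ∑ g : G, χ (g * g) = 1 := by
  classical
  have : Fact (Nat.Prime 2) := ⟨Nat.prime_two⟩
  have hG0 : Nat.card G ≠ 0 := Nat.card_pos.ne'
  have hGe : 2 ∣ Nat.card G := even_iff_two_dvd.mp heven
  have hdeg := PRes.charDegree_cast (IsIrr.isCharacter hχ)
  have hdpos : 0 < charDegree χ := by
    rw [Nat.pos_iff_ne_zero]
    intro h
    rw [h, Nat.cast_zero] at hdeg
    exact IsIrr.one_ne_zero hχ hdeg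
  have hd2 : 2 ∣ charDegree χ :=
    (dvd_pow_self 2 (Nat.prime_two.factorization_pos_of_dvd hG0 hGe).ne').trans h2
  -- commuting element of order 2p
  have h2p : ∀ (p : ℕ), p.Prime → p ≠ 2 → ∀ s y : G, orderOf s = 2 → p ∣ orderOf y → Commute s y → ∃ g : G, orderOf g = 2 * p := by
    intro p hpp hp2 s y hs hy hc
    obtain ⟨z, hz, hzc⟩ : ∃ z : G, orderOf z = p ∧ Commute s z := by
      refine ⟨y ^ (orderOf y / p), orderOf_pow_orderOf_div (orderOf_pos y).ne' hy, hc.pow_right _⟩
    refine ⟨s * z, ?_⟩
    have hcop : (orderOf s).Coprime (orderOf z) := by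
      rw [hs, hz]
      exact (Nat.coprime_primes Nat.prime_two hpp).mpr hp2.symm
    rw [hzc.orderOf_mul_eq_mul_orderOf_of_coprime hcop, hs, hz]
  -- where `χ` does not vanish, the centralizer has odd order
  have hodd : ∀ y : G, y ≠ 1 → χ y ≠ 0 → Odd (Nat.card (Subgroup.centralizer ({y} : Set G))) := by
    intro y hy hne
    rw [← Nat.not_even_iff_odd, even_iff_two_dvd]
    intro hdvd
    obtain ⟨s, hs⟩ := exists_prime_orderOf_dvd_card' (G := Subgroup.centralizer ({y} : Set G)) 2 hdvd
    have hs2 : orderOf (s : G) = 2 := by rw [Subgroup.orderOf_coe, hs]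
    have hc : Commute (s : G) y := Subgroup.mem_centralizer_singleton_iff.mp s.2
    have hy1 : orderOf y ≠ 1 := fun h => hy (orderOf_eq_one_iff.mp h)
    obtain ⟨q, hq, hqd⟩ := Nat.exists_prime_and_dvd hy1
    by_cases hq2 : q = 2
    · subst hq2
      exact hne (vanish' Nat.prime_two hχ h2 hqd)
    · exact hne (vanish' hq hχ (hp q hq hq2 (h2p q hq hq2 s y hs2 hqd hc)) hqd)
  have hcount : ∀ y : G, y ≠ 1 → χ y ≠ 0 → (Finset.univ.filter (fun x : G => x * x = y)).card = 1 := by
    intro y hy hne
    obtain ⟨x, hx, hux⟩ := unique_sqrt (hodd y hy hne) ⟨y, Subgroup.mem_centralizer_singleton_iff.mpr rfl⟩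
    rw [Finset.card_eq_one]
    refine ⟨(x : G), ?_⟩
    ext z
    rw [Finset.mem_filter, Finset.mem_singleton]
    constructor
    · rintro ⟨-, hz⟩
      have hzc : z ∈ Subgroup.centralizer ({y} : Set G) := by
        rw [Subgroup.mem_centralizer_singleton_iff, ← hz, mul_assoc]
      exact congrArg Subtype.val (hux ⟨z, hzc⟩ (Subtype.ext hz))
    · rintro rfl
      exact ⟨Finset.mem_univ _, congrArg Subtype.val hx⟩
  obtain ⟨t, ht⟩ : ∃ t, Nat.card {x : G // orderOf x = 2} = t := ⟨_, rfl⟩
  have ht0 : 0 < t := by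
    rw [← ht]
    obtain ⟨x, hx⟩ := exists_prime_orderOf_dvd_card' (G := G) 2 hGe
    have : Nonempty {x : G // orderOf x = 2} := ⟨⟨x, hx⟩⟩
    exact Nat.card_pos
  -- the sum
  have hsum : ∑ g : G, χ (g * g) = (t : ℂ) * charDegree χ := by
    have h3 : ∑ g : G, χ (g * g) = ∑ y : G, χ y * ((Finset.univ.filter (fun x : G => x * x = y)).card : ℂ) := by
      have h4 : ∀ y : G, χ y * ((Finset.univ.filter (fun x : G => x * x = y)).card : ℂ) = ∑ x : G, if x * x = y then χ (x * x) else 0 := by
        intro y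
        rw [← Finset.sum_filter, Finset.sum_congr rfl (g := fun _ => χ y) (fun x hx => by rw [(Finset.mem_filter.mp hx).2]),
          Finset.sum_const, nsmul_eq_mul, mul_comm]
      rw [Finset.sum_congr rfl fun y _ => h4 y, Finset.sum_comm]
      exact Finset.sum_congr rfl fun x _ => by rw [Finset.sum_ite_eq, if_pos (Finset.mem_univ _)]
    have h5 : ∀ y : G, χ y * ((Finset.univ.filter (fun x : G => x * x = y)).card : ℂ) = χ y + (if y = 1 then (t : ℂ) * χ 1 else 0) := by
      intro y
      by_cases hy : y = 1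
      · subst hy
        rw [if_pos rfl, card_sq_one (G := G), ht]
        push_cast
        ring
      · rw [if_neg hy, add_zero]
        by_cases hne : χ y = 0
        · rw [hne, zero_mul]
        · rw [hcount y hy hne, Nat.cast_one, mul_one]
    rw [h3, Finset.sum_congr rfl fun y _ => h5 y, Finset.sum_add_distrib, Finset.sum_ite_eq', if_pos (Finset.mem_univ _)]
    have h6 : ∑ y : G, χ y = 0 := by
      have hne : χ ≠ fun _ => 1 := by
        rintro rfl
        rw [PRes.charDegree_eq (d := 1) (by simp)] at hd2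
        omega
      have h7 := ci_irr_ne hχ isIrr_one hne
      rw [classInner] at h7
      have h8 := (mul_eq_zero.mp h7).resolve_left (inv_ne_zero card_cast_ne_zero)
      rw [← h8]
      exact Finset.sum_congr rfl fun g _ => by rw [map_one, mul_one]
    rw [h6, zero_add, hdeg]
  have hν : nu χ = 1 := by
    have h3 : nu χ = (((t * charDegree χ : ℕ) : ℝ) / (Nat.card G : ℝ) : ℝ) := by
      rw [nu, hsum]
      push_cast
      rw [inv_mul_eq_div]
    have h4 : (0 : ℝ) < ((t * charDegree χ : ℕ) : ℝ) / (Nat.card G : ℝ) := by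
      have : 0 < t * charDegree χ := by positivity
      have h5 : (0 : ℝ) < ((t * charDegree χ : ℕ) : ℝ) := by exact_mod_cast this
      have h6 : (0 : ℝ) < Nat.card G := by exact_mod_cast Nat.card_pos
      positivity
    rcases nu_cases hχ with ⟨h, -⟩ | ⟨-, h | h⟩
    · rw [h3] at h
      have : ((t * charDegree χ : ℕ) : ℝ) / (Nat.card G : ℝ) = 0 := by exact_mod_cast h
      rw [this] at h4
      exact absurd h4 (lt_irrefl _)
    · exact h
    · rw [h3] at h
      have : ((t * charDegree χ : ℕ) : ℝ) / (Nat.card G : ℝ) = -1 := by exact_mod_cast h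
      rw [this] at h4
      norm_num at h4
  have hG : Nat.card G = t * charDegree χ := by
    have h3 := hν
    rw [nu, hsum, inv_mul_eq_one₀ card_cast_ne_zero] at h3
    exact_mod_cast h3
  -- the centralizers
  have hcdvd : ∀ s : G, orderOf s = 2 → Nat.card (Subgroup.centralizer ({s} : Set G)) ∣ charDegree χ ∧
      ∀ q : ℕ, q.Prime → q ∣ Nat.card (Subgroup.centralizer ({s} : Set G)) → q ^ (Nat.card G).factorization q ∣ charDegree χ := by
    intro s hs
    have hall : ∀ q : ℕ, q.Prime → q ∣ Nat.card (Subgroup.centralizer ({s} : Set G)) → q ^ (Nat.card G).factorization q ∣ charDegree χ := by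
      intro q hq hqd
      by_cases hq2 : q = 2
      · subst hq2
        exact h2
      · have : Fact q.Prime := ⟨hq⟩
        obtain ⟨y, hy⟩ := exists_prime_orderOf_dvd_card' (G := Subgroup.centralizer ({s} : Set G)) q hqd
        have hy2 : q ∣ orderOf (y : G) := by rw [Subgroup.orderOf_coe, hy]
        have hc : Commute s (y : G) := (Subgroup.mem_centralizer_singleton_iff.mp y.2 : (y : G) * s = s * y).symm
        exact hp q hq hq2 (h2p q hq hq2 s y hs hy2 hc)
    refine ⟨?_, hall⟩
    rw [← Nat.factorization_prime_le_iff_dvd Nat.card_pos.ne' hdpos.ne']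
    intro q hq
    by_cases hqd : q ∣ Nat.card (Subgroup.centralizer ({s} : Set G))
    · calc (Nat.card (Subgroup.centralizer ({s} : Set G))).factorization q ≤ (Nat.card G).factorization q :=
            (Nat.factorization_le_iff_dvd Nat.card_pos.ne' hG0).mpr (Subgroup.card_subgroup_dvd_card _) q
        _ ≤ _ := (hq.pow_dvd_iff_le_factorization hdpos.ne').mp (hall q hq hqd)
    · rw [Nat.factorization_eq_zero_of_not_dvd hqd]
      exact Nat.zero_le _
  have hidx : ∀ s : G, orderOf s = 2 → Nat.card (Subgroup.centralizer ({s} : Set G)) = charDegree χ ∧ (∀ u, orderOf u = 2 → IsConj s u) := by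
    intro s hs
    have hcard : Nat.card {u : G // IsConj s u} = (Subgroup.centralizer ({s} : Set G)).index := by
      rw [← card_class_eq_index s, Nat.card_eq_fintype_card, Fintype.card_subtype]
    have hsub : ∀ u : G, IsConj s u → orderOf u = 2 := by
      intro u hu
      obtain ⟨c, rfl⟩ := isConj_iff.mp hu
      rw [← hs]
      exact MulEquiv.orderOf_eq (MulAut.conj c) s
    have hle : Nat.card {u : G // IsConj s u} ≤ t := by
      rw [← ht]
      exact Nat.card_le_card_of_injective (fun u => (⟨u.1, hsub u.1 u.2⟩ : {x : G // orderOf x = 2})) (fun a b h => by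
        have := congrArg Subtype.val h
        exact Subtype.ext this)
    have hci := (Subgroup.centralizer ({s} : Set G)).card_mul_index
    have hcl := Nat.le_of_dvd hdpos (hcdvd s hs).1
    rw [← hcard, hG] at hci
    have hcc : 0 < Nat.card (Subgroup.centralizer ({s} : Set G)) := Nat.card_pos
    have heq : Nat.card {u : G // IsConj s u} = t ∧ Nat.card (Subgroup.centralizer ({s} : Set G)) = charDegree χ := by
      have h5 : charDegree χ * t ≤ Nat.card (Subgroup.centralizer ({s} : Set G)) * t := by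
        rw [mul_comm _ t, ← hci]
        exact Nat.mul_le_mul_left _ hle
      have h6 := Nat.le_of_mul_le_mul_right h5 ht0
      have h7 := le_antisymm hcl h6
      rw [h7, mul_comm] at hci
      exact ⟨Nat.eq_of_mul_eq_mul_right hdpos hci, h7⟩
    refine ⟨heq.2, fun u hu => ?_⟩
    have hbij : Function.Bijective (fun u : {u : G // IsConj s u} => (⟨u.1, hsub u.1 u.2⟩ : {x : G // orderOf x = 2})) := by
      rw [Nat.bijective_iff_injective_and_card]
      exact ⟨fun a b h => by
        have := congrArg Subtype.val h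
        exact Subtype.ext this, by rw [heq.1, ht]⟩
    obtain ⟨⟨v, hv⟩, hvu⟩ := hbij.2 ⟨u, hu⟩
    have : v = u := congrArg Subtype.val hvu
    rwa [← this]
  refine ⟨fun s u hs hu => (hidx s hs).2 u hu, fun s hs => ⟨(hidx s hs).1, ?_⟩, hν⟩
  refine Nat.Coprime.symm (Nat.coprime_of_dvd fun q hq hqi hqd => ?_)
  have h3 := (hcdvd s hs).2 q hq hqd
  rw [← (hidx s hs).1] at h3
  have h4 := (Subgroup.centralizer ({s} : Set G)).card_mul_index
  have h5 : q ^ ((Nat.card G).factorization q + 1) ∣ Nat.card G := by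
    rw [pow_succ]
    exact (mul_dvd_mul h3 hqi).trans (dvd_of_eq h4)
  have h6 := (hq.pow_dvd_iff_le_factorization hG0).mp h5
  omega

end Cfsg.Agent.H3.DefTwo
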