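import Mathlib
import Cfsg.Prelude.Def_Characters
import Cfsg.Prelude.Def_Blocks
import Cfsg.Agent.H3_GalP
import Cfsg.Agent.H3_Burnside
import Cfsg.Agent.H3_Lift
import Cfsg.Agent.S4441
import Cfsg.Agent.H10_BlockKn

/-!
# Groups whose nonlinear irreducible characters have prime degree
-/

set_option autoImplicit false

open scoped ComplexConjugate commutatorElement

namespace Cfsg.Agent.H3.PrimeDeg

open Cfsg Cfsg.Agent.H3.CharBasic Cfsg.Agent.H3.CharIrr Cfsg.Agent.H3.CharComplete
  Cfsg.Agent.H3.CharMult Cfsg.Agent.H3.CharInd Cfsg.Agent.H3.CharInt Cfsg.Agent.H3.CharQuot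
  Cfsg.Agent.H3.Extraspecial Cfsg.Agent.H3.Burnside Cfsg.Agent.H3.CharGal

variable {G : Type*} [Group G] [Finite G]

omit [Finite G] in
theorem perfect [IsSimpleGroup G] (hna : ¬ ∀ a b : G, a * b = b * a) : commutator G = ⊤ := by
  rcases (inferInstance : (commutator G).Normal).eq_bot_or_eq_top with h | h
  · exfalso
    apply hna
    intro a b
    have h1 : ⁅a, b⁆ ∈ commutator G :=
      Subgroup.commutator_mem_commutator (Subgroup.mem_top _) (Subgroup.mem_top _)
    rw [h, Subgroup.mem_bot] at h1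
    exact commutatorElement_eq_one_iff_mul_comm.mp h1
  · exact h

omit [Finite G] in
theorem hom_trivial [IsSimpleGroup G] (hna : ¬ ∀ a b : G, a * b = b * a) {A : Type*} [CommGroup A] (f : G →* A) (g : G) :
    f g = 1 := by
  have h1 : g ∈ commutator G := by rw [perfect hna]; trivial
  exact Abelianization.commutator_subset_ker f h1

/-- elements acting by scalars are central -/
theorem one_of_norm [IsSimpleGroup G] (hna : ¬ ∀ a b : G, a * b = b * a) {χ : G → ℂ} (hχ : IsIrrCharacter G χ)
    (hn : χ 1 ≠ 1) {g : G} (hg : ‖χ g‖ = ‖χ 1‖) : g = 1 := by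
  obtain ⟨n, ρ, hρ, rfl⟩ := hχ
  have h1 : ‖ρ.character g‖ = (Module.finrank ℂ (Fin n → ℂ) : ℝ) := by
    rw [hg, Representation.char_one, Complex.norm_natCast]
  obtain ⟨ω, hω⟩ := (norm_char_eq_iff ρ g).mp h1
  have hinj := injective_of_simple ρ hρ (by
    intro h
    exact hn (congrFun h 1))
  by_contra hg1
  apply hna
  apply comm_of_center_ne_bot hg1
  rw [Subgroup.mem_center_iff]
  intro h
  apply hinj
  rw [map_mul, map_mul, hω]
  ext v; simp

/-- no irreducible characters of degree two -/
theorem no_two [IsSimpleGroup G] (hna : ¬ ∀ a b : G, a * b = b * a) {χ : G → ℂ} (hχ : IsIrrCharacter G χ) :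
    χ 1 ≠ 2 := by
  classical
  intro h2
  obtain ⟨m, -, hm, hdvd⟩ := IsIrr.dvd_card hχ
  have hm2 : m = 2 := by
    rw [h2] at hm; exact_mod_cast hm.symm
  rw [hm2] at hdvd
  have : Fact (Nat.Prime 2) := ⟨Nat.prime_two⟩
  obtain ⟨t, ht⟩ := exists_prime_orderOf_dvd_card' (G := G) 2 hdvd
  have ht1 : t ≠ 1 := by
    rintro rfl
    rw [orderOf_one] at ht
    norm_num at ht
  have htt : t * t = 1 := by
    have := pow_orderOf_eq_one t
    rwa [ht, sq] at this
  apply ht1
  apply one_of_norm hna hχ (by rw [h2]; norm_num)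
  obtain ⟨n, ρ, hρ, rfl⟩ := hχ
  have hn : n = 2 := by
    rw [Representation.char_one, Module.finrank_fin_fun] at h2
    exact_mod_cast h2
  subst hn
  let A : Matrix (Fin 2) (Fin 2) ℂ := LinearMap.toMatrix' (ρ t)
  have hA : A * A = 1 := by
    show LinearMap.toMatrix' (ρ t) * LinearMap.toMatrix' (ρ t) = 1
    rw [← LinearMap.toMatrix'_mul, ← map_mul, htt, map_one, LinearMap.toMatrix'_one]
  have hdet : A.det = 1 := by
    have h3 := hom_trivial hna (MonoidHom.toHomUnits (LinearMap.det.comp ρ)) t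
    have h4 : LinearMap.det (ρ t) = 1 := by
      have := congrArg Units.val h3
      simpa using this
    rw [← h4]
    exact LinearMap.det_toMatrix' _
  have htr : ρ.character t = A.trace := by
    rw [Representation.character, LinearMap.trace_eq_matrix_trace ℂ (Pi.basisFun ℂ (Fin 2)),
      LinearMap.toMatrix_eq_toMatrix']
  have e00 := congrFun (congrFun hA 0) 0
  have e11 := congrFun (congrFun hA 1) 1
  rw [Matrix.mul_apply, Fin.sum_univ_two] at e00 e11
  rw [Matrix.det_fin_two] at hdet
  simp only [Matrix.one_apply_eq] at e00 e11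
  rw [htr, h2, Matrix.trace_fin_two]
  have f1 : A 0 0 * (A 0 0 + A 1 1) = 2 := by linear_combination e00 + hdet
  have f2 : A 1 1 * (A 0 0 + A 1 1) = 2 := by linear_combination e11 + hdet
  have f3 : (A 0 0 + A 1 1) * (A 0 0 + A 1 1) = 4 := by linear_combination f1 + f2
  have f4 : ‖A 0 0 + A 1 1‖ * ‖A 0 0 + A 1 1‖ = 4 := by
    rw [← norm_mul, f3]; norm_num
  have f5 : ‖(2 : ℂ)‖ = 2 := by norm_num
  rw [f5]
  nlinarith [norm_nonneg (A 0 0 + A 1 1)]

/-- a Sylow subgroup for a prime degree has prime order -/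
theorem sylow_order [IsSimpleGroup G] (hna : ¬ ∀ a b : G, a * b = b * a) {p : ℕ} [hp : Fact p.Prime] {χ : G → ℂ}
    (hχ : IsIrrCharacter G χ) (h1 : χ 1 = p) (P : Sylow p G) : Nat.card P = p := by
  classical
  have iG := Fintype.ofFinite G
  have iP := Fintype.ofFinite P
  have hn : χ 1 ≠ 1 := by
    rw [h1]; exact_mod_cast hp.out.one_lt.ne'
  have hdvd : p ∣ Nat.card G := by
    obtain ⟨m, -, hm, hd⟩ := IsIrr.dvd_card hχ
    rw [h1] at hm
    have : p = m := by exact_mod_cast hm
    rw [this]; exact hd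
  have hPb : (P : Subgroup G) ≠ ⊥ := by
    intro h
    have h2 := P.not_dvd_index
    rw [h, Subgroup.index_bot] at h2
    exact h2 hdvd
  -- vanishing on the centre
  have hvan : ∀ z : P, z ∈ Subgroup.center P → z ≠ 1 → χ z = 0 := by
    intro z hz hz1
    obtain ⟨n, ρ, hρ, rfl⟩ := hχ
    have hle : (P : Subgroup G) ≤ Subgroup.centralizer ({(z : G)} : Set G) := by
      intro x hx
      rw [Subgroup.mem_centralizer_iff]
      intro y hy
      rw [Set.mem_singleton_iff] at hy
      subst hy
      have := Subgroup.mem_center_iff.mp hz ⟨x, hx⟩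
      exact (congrArg Subtype.val this).symm
    have hidx : ¬ p ∣ (Subgroup.centralizer ({(z : G)} : Set G)).index := by
      intro h
      exact P.not_dvd_index (h.trans (Subgroup.index_dvd_of_le hle))
    have hfin : Module.finrank ℂ (Fin n → ℂ) = p := by
      rw [Representation.char_one] at h1
      exact_mod_cast h1
    rcases burnside_lemma ρ hρ (z : G) (by
      rw [hfin]; exact (Nat.Prime.coprime_iff_not_dvd hp.out).mpr hidx) with h | h
    · exact h
    · exfalso
      apply hz1
      apply Subtype.ext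
      apply one_of_norm hna ⟨n, ρ, hρ, rfl⟩ hn
      rw [h, h1, hfin, Complex.norm_natCast]
  have hPnt : Nontrivial P := (Subgroup.nontrivial_iff_ne_bot _).mpr hPb
  have hcen := P.isPGroup'.center_nontrivial
  obtain ⟨⟨z, hz⟩, hz1'⟩ := exists_ne (1 : Subgroup.center P)
  have hz1 : z ≠ 1 := fun h => hz1' (Subtype.ext h)
  have hres := IsChar.res (IsIrr.isCharacter hχ) (P : Subgroup G)
  -- all constituents are linear
  have hlin : ∀ ψ : P → ℂ, IsIrrCharacter P ψ → classInner (fun x : P => χ x) ψ ≠ 0 → ψ 1 = 1 := by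
    intro ψ hψ hc
    obtain ⟨m, -, hm, hd⟩ := IsIrr.dvd_card hψ
    obtain ⟨k, hk⟩ := IsPGroup.iff_card.mp P.isPGroup'
    have hk' : Nat.card P = p ^ k := hk
    rw [hk'] at hd
    obtain ⟨i, -, hi⟩ := (Nat.dvd_prime_pow hp.out).mp hd
    have hle : m ≤ p := IsChar.degree_le' hres hψ hc (by show χ 1 = p; exact h1) hm
    have hi1 : i ≤ 1 := by
      rw [hi] at hle
      have : p ^ i ≤ p ^ 1 := by rw [pow_one]; exact hle
      exact (Nat.pow_le_pow_iff_right hp.out.one_lt).mp this
    rcases Nat.eq_zero_or_pos i with h0 | h0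
    · rw [hm, hi, h0, pow_zero, Nat.cast_one]
    · exfalso
      have hi' : i = 1 := by omega
      have he : (fun x : P => χ x) = ψ := by
        apply IsChar.eq_of_degree hres hψ hc
        show χ 1 = ψ 1
        rw [h1, hm, hi, hi', pow_one]
      have h3 := GalP.norm_central hψ hz
      rw [← he] at h3
      have h4 : χ (z : G) = 0 := hvan z hz hz1
      have h5 : ‖(0 : ℂ)‖ = ‖(p : ℂ)‖ := by
        rw [← h4, ← h1]; exact h3
      rw [norm_zero, Complex.norm_natCast] at h5
      have : (p : ℝ) ≠ 0 := by exact_mod_cast hp.out.ne_zero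
      exact this h5.symm
  -- `P` is abelian
  have iIrr := Fintype.ofFinite (IrrCharacter P)
  have hab : ∀ a b : P, a * b = b * a := by
    intro a b
    rw [← commutatorElement_eq_one_iff_mul_comm]
    apply Subtype.ext
    apply one_of_norm hna hχ hn
    have hex := expand_apply (fun x : P => χ x) (IsChar.isClass hres)
    have h3 : χ (⁅a, b⁆ : P) = χ 1 := by
      have e1 := hex ⁅a, b⁆
      have e2 := hex 1
      rw [e1]
      have e3 : χ 1 = χ ((1 : P) : G) := rfl
      rw [e3, e2]
      refine Finset.sum_congr rfl fun ψ _ => ?_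
      by_cases h0 : classInner (fun x : P => χ x) (ψ : P → ℂ) = 0
      · rw [h0, zero_mul, zero_mul]
      · rw [commutator_of_one (IsIrr.isCharacter ψ.2) (hlin ψ ψ.2 h0) ⁅a, b⁆
          (Subgroup.commutator_mem_commutator (Subgroup.mem_top _) (Subgroup.mem_top _))]
    rw [h3]
  -- order
  obtain ⟨k, hk⟩ := ci_char_nat hres (IsChar.one (G := P))
  rw [classInner, Finset.sum_eq_single (1 : (P : Subgroup G))] at hk
  · have h0 : (Nat.card P : ℂ) ≠ 0 := by exact_mod_cast Nat.card_pos.ne'
    have h3 : (Nat.card P : ℂ)⁻¹ * ((p : ℂ) * 1) = k := by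
      rw [← hk, ← h1]; simp
    rw [mul_one, inv_mul_eq_iff_eq_mul₀ h0] at h3
    have h4 : p = Nat.card P * k := by exact_mod_cast h3
    have h5 : Nat.card P ∣ p := ⟨k, h4⟩
    rcases (Nat.dvd_prime hp.out).mp h5 with h6 | h6
    · exact absurd (Subgroup.card_eq_one.mp h6) hPb
    · exact h6
  · intro x _ hx
    have h3 : χ (x : G) = 0 := hvan x (Subgroup.mem_center_iff.mpr fun g => hab g x) hx
    simp only [h3, zero_mul]
  · intro h; exact absurd (Finset.mem_univ _) h

/-- the simple case -/
theorem simple_case {G : Type*} [Group G] [Finite G] [IsSimpleGroup G] (hna : ¬ ∀ a b : G, a * b = b * a)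
    (h : ∀ χ : IrrCharacter G, charDegree (χ : G → ℂ) ≠ 1 → (charDegree (χ : G → ℂ)).Prime) : False := by
  classical
  have iG := Fintype.ofFinite G
  have iIrr := Fintype.ofFinite (IrrCharacter G)
  have hdeg : ∀ {χ : G → ℂ}, IsIrrCharacter G χ → χ 1 = (charDegree χ : ℂ) := by
    intro χ hχ
    obtain ⟨m, -, hm⟩ := IsIrr.one_eq_nat hχ
    have : charDegree χ = m := by
      rw [charDegree, hm, Complex.natCast_re, Nat.floor_natCast]
    rw [this, hm]
  obtain ⟨χ₀, hχ₀, hnl⟩ := GalP.exists_nonlinear hna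
  obtain ⟨χ, -, hmax⟩ := Finset.exists_max_image (Finset.univ : Finset (IrrCharacter G))
    (fun χ => charDegree (χ : G → ℂ)) ⟨⟨χ₀, hχ₀⟩, Finset.mem_univ _⟩
  obtain ⟨p, hp'⟩ : ∃ p, p = charDegree (χ : G → ℂ) := ⟨_, rfl⟩
  have hp1 : p ≠ 1 := by
    intro h1
    have h2 := hmax ⟨χ₀, hχ₀⟩ (Finset.mem_univ _)
    have h3 : charDegree χ₀ ≤ 1 := by
      rw [← h1, hp']; exact h2
    obtain ⟨m, hm0, hm⟩ := IsIrr.one_eq_nat hχ₀
    have h4 := hdeg hχ₀
    rw [hm] at h4
    have h5 : m = charDegree χ₀ := by exact_mod_cast h4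
    apply hnl
    rw [hm]
    have : m = 1 := by omega
    rw [this, Nat.cast_one]
  have hp : p.Prime := by
    rw [hp']; exact h χ (by rw [← hp']; exact hp1)
  have hF : Fact p.Prime := ⟨hp⟩
  have hχp : (χ : G → ℂ) 1 = p := by rw [hdeg χ.2, hp']
  have hodd : p ≠ 2 := by
    rintro rfl
    exact no_two hna χ.2 (by rw [hχp]; norm_num)
  obtain ⟨P⟩ : Nonempty (Sylow p G) := inferInstance
  have hP := sylow_order hna χ.2 hχp P
  obtain ⟨M, hM⟩ := H10.BlockKn.exists_modular hp
  obtain ⟨X, Y, -, -, hX, -, εX, ε, hXd, -⟩ := S4441.result p M hM hodd P hP _ rfl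
  have hXt : ∀ ψ ∈ X, (ψ : G → ℂ) = fun _ => 1 := by
    intro ψ hψ
    have hd1 : charDegree (ψ : G → ℂ) = 1 := by
      by_contra hne
      have hq := h ψ hne
      have hle : charDegree (ψ : G → ℂ) ≤ p := by
        rw [hp']; exact hmax ψ (Finset.mem_univ _)
      have h2 : charDegree (ψ : G → ℂ) ≠ 2 := by
        intro h2
        exact no_two hna ψ.2 (by rw [hdeg ψ.2, h2]; norm_num)
      have ho := hq.odd_of_ne_two h2
      have hpo := hp.odd_of_ne_two hodd
      obtain ⟨he, hmod, -⟩ := hXd ψ hψ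
      obtain ⟨c, hc⟩ := (Int.modEq_iff_dvd.mp hmod)
      obtain ⟨x, hx⟩ := ho
      obtain ⟨y, hy⟩ := hpo
      rcases he with he | he
      · rw [he] at hc
        have h4 : (p : ℤ) ∣ (charDegree (ψ : G → ℂ) : ℤ) - 1 := ⟨-c, by linear_combination -hc⟩
        have h5 : p ∣ charDegree (ψ : G → ℂ) - 1 := by
          have h6 : ((charDegree (ψ : G → ℂ) - 1 : ℕ) : ℤ) = (charDegree (ψ : G → ℂ) : ℤ) - 1 := by
            have := hq.one_lt
            push_cast [this.le]; ring
          rw [← h6] at h4
          exact_mod_cast h4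
        have h7 := Nat.le_of_dvd (by have := hq.one_lt; omega) h5
        omega
      · rw [he] at hc
        have h4 : (p : ℤ) ∣ (charDegree (ψ : G → ℂ) : ℤ) + 1 := ⟨-c, by linear_combination -hc⟩
        have h5 : p ∣ charDegree (ψ : G → ℂ) + 1 := by exact_mod_cast h4
        have h6 := Nat.le_of_dvd (by omega) h5
        have h8 : charDegree (ψ : G → ℂ) + 1 = p ∨ charDegree (ψ : G → ℂ) = p := by omega
        rcases h8 with h8 | h8
        · omega
        · rw [h8] at h5
          have h9 : p ∣ 1 := (Nat.dvd_add_right (dvd_refl p)).mp h5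
          exact hp.one_lt.ne' (Nat.dvd_one.mp h9)
    have h1 : (ψ : G → ℂ) 1 = 1 := by rw [hdeg ψ.2, hd1, Nat.cast_one]
    obtain ⟨f, hf⟩ := IsChar.hom_units_of_one (IsIrr.isCharacter ψ.2) h1
    funext g
    rw [hf g, hom_trivial hna f g]; rfl
  have hX1 : Nat.card X ≤ 1 := by
    rw [Finite.card_le_one_iff_subsingleton]
    constructor
    rintro ⟨a, ha⟩ ⟨b, hb⟩
    apply Subtype.ext
    apply Subtype.ext
    show (a : G → ℂ) = (b : G → ℂ)
    rw [hXt a ha, hXt b hb]
  rw [hX] at hX1
  have h0 : (Subgroup.centralizer ((P : Subgroup G) : Set G)).relIndex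
      (Subgroup.normalizer ((P : Subgroup G) : Set G)) ≠ 0 := Subgroup.index_ne_zero_of_finite
  have h1 : (Subgroup.centralizer ((P : Subgroup G) : Set G)).relIndex
      (Subgroup.normalizer ((P : Subgroup G) : Set G)) = 1 := by omega
  have hle := Subgroup.relIndex_eq_one.mp h1
  have hcompl := MonoidHom.ker_transferSylow_isComplement' P hle
  rcases (MonoidHom.normal_ker (MonoidHom.transferSylow P hle)).eq_bot_or_eq_top with h2 | h2
  · rw [h2] at hcompl
    have h3 : (P : Subgroup G) = ⊤ := by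
      have := hcompl.sup_eq_top
      rwa [bot_sup_eq] at this
    have h4 : Nat.card G = p := by
      rw [← hP, h3, Subgroup.card_top]
    have hcyc : IsCyclic G := isCyclic_of_prime_card h4
    exact hna (IsCyclic.commGroup).mul_comm
  · rw [h2] at hcompl
    have h3 : (P : Subgroup G) = ⊥ := by
      have := hcompl.disjoint
      rwa [top_disjoint] at this
    rw [h3, Subgroup.card_bot] at hP
    exact hp.one_lt.ne hP

universe u in
theorem main (n : ℕ) : ∀ (G : Type u) [Group G] [Finite G], Nat.card G = n →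
    (∀ χ : IrrCharacter G, charDegree (χ : G → ℂ) ≠ 1 → (charDegree (χ : G → ℂ)).Prime) → Group.IsSolvable G := by
  induction n using Nat.strong_induction_on with
  | _ n ih =>
    intro G _ _ hn h
    classical
    have iG := Fintype.ofFinite G
    have hdegG : ∀ {G : Type u} [Group G] [Finite G] {χ : G → ℂ}, IsIrrCharacter G χ → χ 1 = (charDegree χ : ℂ) := by
      intro G _ _ χ hχ
      obtain ⟨m, -, hm⟩ := IsIrr.one_eq_nat hχ
      have : charDegree χ = m := by
        rw [charDegree, hm, Complex.natCast_re, Nat.floor_natCast]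
      rw [this, hm]
    by_cases htriv : Subsingleton G
    · infer_instance
    rw [not_subsingleton_iff_nontrivial] at htriv
    by_cases hsimp : IsSimpleGroup G
    · by_cases hna : ∀ a b : G, a * b = b * a
      · exact IsSimpleGroup.comm_iff_isSolvable.mp hna
      · exact (simple_case hna h).elim
    · have : ∃ N : Subgroup G, N.Normal ∧ N ≠ ⊥ ∧ N ≠ ⊤ := by
        by_contra hne
        push Not at hne
        apply hsimp
        exact { eq_bot_or_eq_top_of_normal := fun N hN => by
                  by_cases h : N = ⊥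
                  · exact Or.inl h
                  · exact Or.inr (hne N hN h) }
      obtain ⟨N, hN, hbot, htop⟩ := this
      have hmul := N.card_mul_index
      have hN1 : 1 < Nat.card N := N.one_lt_card_iff_ne_bot.mpr hbot
      have hi1 : N.index ≠ 1 := fun h => htop (Subgroup.index_eq_one.mp h)
      have hi0 : N.index ≠ 0 := Subgroup.FiniteIndex.index_ne_zero
      have hlt1 : Nat.card N < n := by
        rw [← hn, ← hmul]
        exact lt_mul_of_one_lt_right Nat.card_pos (by omega)
      have hlt2 : N.index < n := by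
        rw [← hn, ← hmul]
        exact lt_mul_of_one_lt_left (by omega) hN1
      have iN := Fintype.ofFinite N
      have s1 : Group.IsSolvable N := by
        apply ih _ hlt1 N rfl
        intro θ hθ
        obtain ⟨χ, hχ, hc⟩ := exists_constituent_ind (H := N) θ.2
        have hc' := (constituent_ind_iff (IsIrr.isCharacter hχ)).mp hc
        obtain ⟨b, hb, -⟩ := Lift.degree_dvd N hχ θ.2 hc'
        rw [hdegG hχ, hdegG θ.2] at hb
        have hb' : charDegree χ = b * charDegree (θ : N → ℂ) := by exact_mod_cast hb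
        have hne : charDegree χ ≠ 1 := by
          intro h1
          rw [h1] at hb'
          exact hθ (Nat.eq_one_of_mul_eq_one_left hb'.symm)
        have hpr := h ⟨χ, hχ⟩ hne
        have hd : charDegree (θ : N → ℂ) ∣ charDegree χ := ⟨b, by rw [hb', mul_comm]⟩
        rcases (Nat.dvd_prime hpr).mp hd with h2 | h2
        · exact absurd h2 hθ
        · rw [h2]; exact hpr
      have s2 : Group.IsSolvable (G ⧸ N) := by
        apply ih _ hlt2 (G ⧸ N) (Subgroup.index_eq_card N).symm
        intro θ hθ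
        have h1 : charDegree (fun g : G => (θ : G ⧸ N → ℂ) g) = charDegree (θ : G ⧸ N → ℂ) := rfl
        rw [← h1] at hθ ⊢
        exact h ⟨_, IsIrr.inflate θ.2⟩ hθ
      exact (Group.isSolvable_iff_subgroup_quotient N).mpr ⟨s1, s2⟩

end Cfsg.Agent.H3.PrimeDeg
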