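import Mathlib
import Cfsg.Agent.H3_SmallRep2

/-!
# Normal Sylow subgroups of groups with a representation of small degree: structure in the central case
-/

set_option autoImplicit false

namespace Cfsg.Agent.H3.SmallRep

section Struct

variable {G : Type*} [Group G] [Fintype G] {p : ℕ} [hp : Fact p.Prime] (P : Sylow p G)

/-- an invariant Sylow subgroup -/
theorem exists_inv_sylow {K : Subgroup G} (hK : K.Normal) (hpK : ¬ p ∣ Nat.card K) {j : ℕ} (hj : K.index = p ^ j)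
    {q : ℕ} (hq : q.Prime) : ∃ L : Subgroup G, L ≤ K ∧ (∀ x ∈ P, ∀ l ∈ L, x * l * x⁻¹ ∈ L) ∧ IsPGroup q L ∧
      Nat.card L = q ^ (Nat.card K).factorization q := by
  have : Fact q.Prime := ⟨hq⟩
  obtain ⟨Q⟩ : Nonempty (Sylow q K) := inferInstance
  obtain ⟨Q', hQ'⟩ : ∃ Q' : Subgroup G, Q' = (Q : Subgroup K).map K.subtype := ⟨_, rfl⟩
  obtain ⟨N, hN⟩ : ∃ N : Subgroup G, N = Subgroup.normalizer (Q' : Set G) := ⟨_, rfl⟩
  have hNK : N ⊔ K = ⊤ := by
    rw [hN, hQ']
    exact Sylow.normalizer_sup_eq_top Q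
  have hrel : K.relIndex N = p ^ j := by
    rw [← Subgroup.relIndex_sup_right, hNK, Subgroup.relIndex_top_right, hj]
  have hdvd : p ^ j ∣ Nat.card N := by rw [← hrel]; exact Subgroup.relIndex_dvd_card _ _
  have hcardG : Nat.card G = p ^ j * Nat.card K := by rw [← hj, Subgroup.index_mul_card]
  have hcop : (p ^ j).Coprime (Nat.card K) := Nat.Coprime.pow_left j ((Nat.Prime.coprime_iff_not_dvd hp.out).mpr hpK)
  have hSyl : ∀ R : Sylow p G, Nat.card R = p ^ j := by
    intro R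
    apply Nat.dvd_antisymm
    · obtain ⟨k, hk⟩ := IsPGroup.iff_card.mp R.2
      have h1 : Nat.card R ∣ p ^ j * Nat.card K := by rw [← hcardG]; exact Subgroup.card_subgroup_dvd_card _
      have h2 : (Nat.card R).Coprime (Nat.card K) := by
        have hk' : Nat.card R = p ^ k := hk
        rw [hk']
        exact Nat.Coprime.pow_left k ((Nat.Prime.coprime_iff_not_dvd hp.out).mpr hpK)
      exact h2.dvd_of_dvd_mul_right h1
    · exact R.pow_dvd_card_of_pow_dvd_card (by rw [hcardG]; exact Dvd.intro _ rfl)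
  obtain ⟨S0⟩ : Nonempty (Sylow p N) := inferInstance
  obtain ⟨S', hS'⟩ : ∃ S' : Subgroup G, S' = (S0 : Subgroup N).map N.subtype := ⟨_, rfl⟩
  have hS'N : S' ≤ N := by rw [hS']; rintro _ ⟨y, -, rfl⟩; exact y.2
  have hS'p : IsPGroup p S' := by rw [hS']; exact S0.2.map _
  have hS'c : p ^ j ∣ Nat.card S' := by
    have h1 := S0.pow_dvd_card_of_pow_dvd_card hdvd
    rw [hS', Subgroup.card_map_of_injective N.subtype_injective]
    exact h1
  obtain ⟨R, hR⟩ := hS'p.exists_le_sylow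
  have hRS : S' = R := by
    apply Subgroup.eq_of_le_of_card_ge hR
    have h1 : Nat.card (R : Subgroup G) = p ^ j := hSyl R
    rw [h1]
    exact Nat.le_of_dvd Nat.card_pos hS'c
  obtain ⟨g, hg⟩ := MulAction.exists_smul_eq G P R
  have hPR : ∀ x ∈ P, g * x * g⁻¹ ∈ N := by
    intro x hx
    apply hS'N
    rw [hRS, ← hg]
    exact ⟨x, hx, rfl⟩
  have hQ'K : Q' ≤ K := by rw [hQ']; rintro _ ⟨y, -, rfl⟩; exact y.2
  refine ⟨Q'.map (MulAut.conj g⁻¹).toMonoidHom, ?_, ?_, ?_, ?_⟩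
  · rintro _ ⟨y, hy, rfl⟩
    exact hK.conj_mem y (hQ'K hy) g⁻¹
  · rintro x hx _ ⟨y, hy, rfl⟩
    have h1 := hPR x hx
    rw [hN] at h1
    have h2 := (Subgroup.mem_normalizer_iff.mp h1 y).mp hy
    refine ⟨g * x * g⁻¹ * y * (g * x * g⁻¹)⁻¹, h2, ?_⟩
    change g⁻¹ * (g * x * g⁻¹ * y * (g * x * g⁻¹)⁻¹) * g⁻¹⁻¹ = x * (g⁻¹ * y * g⁻¹⁻¹) * x⁻¹
    group
  · rw [hQ']; exact (Q.2.map _).map _
  · rw [Subgroup.card_map_of_injective (MulAut.conj g⁻¹).injective, hQ', Subgroup.card_map_of_injective K.subtype_injective]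
    exact Sylow.card_eq_multiplicity Q

theorem comm_ne_of_qgroup {K : Subgroup G} {q : ℕ} (hq : q.Prime) (hK : IsPGroup q K) (hne : K ≠ ⊥) : ⁅K, K⁆ ≠ K := by
  have : Fact q.Prime := ⟨hq⟩
  have hnil : Group.IsNilpotent K := hK.isNilpotent
  have : Nontrivial K := (Subgroup.nontrivial_iff_ne_bot K).mpr hne
  intro h
  have h1 : (commutator K).map K.subtype = K := by
    rw [commutator_def, Subgroup.map_commutator, ← MonoidHom.range_eq_map, Subgroup.range_subtype]
    exact h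
  have h2 : commutator K = ⊤ := by
    apply Subgroup.map_injective K.subtype_injective
    rw [h1, ← MonoidHom.range_eq_map, Subgroup.range_subtype]
  have h3 := IsSolvable.commutator_lt_top_of_nontrivial K
  rw [h2] at h3
  exact lt_irrefl _ h3

end Struct

section Min

variable {G : Type*} [Group G] [Fintype G] {p : ℕ} [hp : Fact p.Prime] (P : Sylow p G)
  (hab : ∀ a ∈ P, ∀ b ∈ P, a * b = b * a) (hNS : ∀ K : Subgroup G, K ≠ ⊤ → NS p K)
  (hnn : ¬ (P : Subgroup G).Normal)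

include hab hNS hnn in
theorem step5 (hZ : (P : Subgroup G) ⊓ Subgroup.center G ≠ ⊥) : ∃ K : Subgroup G, K.Normal ∧ ¬ p ∣ Nat.card K ∧
    (∃ j, K.index = p ^ j) ∧ ⁅K, K⁆ ≠ K ∧
    (∀ L : Subgroup G, L < K → (∀ x ∈ (P : Subgroup G), ∀ l ∈ L, x * l * x⁻¹ ∈ L) → ∀ x ∈ (P : Subgroup G), ∀ l ∈ L, x * l = l * x) ∧
    (∃ x ∈ (P : Subgroup G), ∃ k ∈ K, x * k ≠ k * x) := by
  obtain ⟨K, hK⟩ : ∃ K : Subgroup G, K = commutator G := ⟨_, rfl⟩
  have hKn : K.Normal := by rw [hK]; infer_instance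
  rw [Ne, Subgroup.eq_bot_iff_forall] at hZ
  push Not at hZ
  obtain ⟨z, ⟨hzP, hzZ⟩, hz1⟩ := hZ
  have hKt : K ≠ ⊤ := by
    intro h1
    apply hz1
    apply inf_center_commutator P hab hzP hzZ
    rw [← hK, h1]
    trivial
  obtain ⟨S, hS⟩ := (hNS K hKt).exists_sub
  have hSn : ∀ g n, n ∈ S → g * n * g⁻¹ ∈ S := by
    intro g n hn
    rw [hS] at hn ⊢
    exact ⟨hKn.conj_mem n hn.1 g, pel_conj hn.2 g⟩
  have hSN : S.Normal := ⟨fun n hn g => hSn g n hn⟩
  have hSP : S ≤ P := IsPGroup.le_sylow_of_normal (H := P) (isPGroup_of (fun x hx => ((hS x).mp hx).2))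
  obtain ⟨C, hCn, hC⟩ := exists_cent (N := S) hSn
  have hCt : C = ⊤ := by
    apply step3 P hNS hnn C hCn
    intro x hx
    rw [hC]
    intro n hn
    exact hab n (hSP hn) x hx
  have hS1 : ∀ n ∈ S, n = 1 := by
    intro n hn
    apply inf_center_commutator P hab (hSP hn) _ (by rw [← hK]; exact ((hS n).mp hn).1)
    rw [Subgroup.mem_center_iff]
    intro g
    exact ((hC g).mp (by rw [hCt]; trivial) n hn).symm
  have hpel : ∀ x ∈ P, x ∈ K → x = 1 := fun x hx hxK => hS1 x ((hS x).mpr ⟨hxK, pel_of_mem P hx⟩)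
  have hpK : ¬ p ∣ Nat.card K := by
    intro h1
    obtain ⟨x, hx⟩ := exists_prime_orderOf_dvd_card' (G := K) p h1
    have h2 : (x : G) = 1 := by
      apply hS1
      rw [hS]
      refine ⟨x.2, 1, ?_⟩
      rw [pow_one, ← hx, ← Subgroup.orderOf_coe]
      exact pow_orderOf_eq_one _
    have h3 : x = 1 := Subtype.ext h2
    rw [h3, orderOf_one] at hx
    exact hp.out.one_lt.ne hx
  -- the index
  have hindex : ∃ j, K.index = p ^ j := by
    have h1 : IsPGroup p (Abelianization G) := by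
      obtain ⟨M, hM⟩ : ∃ M : Subgroup G, ∀ g, g ∈ M ↔ ∃ a, (Abelianization.of g) ^ p ^ a = 1 := by
        refine ⟨{ carrier := {g | ∃ a, (Abelianization.of g) ^ p ^ a = 1}
                  mul_mem' := ?_
                  one_mem' := ⟨0, by simp⟩
                  inv_mem' := ?_ }, fun g => Iff.rfl⟩
        · rintro x y ⟨a, ha⟩ ⟨b, hb⟩
          refine ⟨a + b, ?_⟩
          rw [map_mul, mul_pow, pow_add, pow_mul, ha, one_pow, mul_comm (p ^ a), pow_mul, hb, one_pow, one_mul]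
        · rintro x ⟨a, ha⟩
          exact ⟨a, by rw [map_inv, inv_pow, ha, inv_one]⟩
      have hMn : M.Normal := by
        refine ⟨fun n hn g => ?_⟩
        rw [hM] at hn ⊢
        obtain ⟨a, ha⟩ := hn
        refine ⟨a, ?_⟩
        rw [map_mul, map_mul, map_inv, mul_comm, inv_mul_cancel_left, ha]
      have hMt : M = ⊤ := by
        apply step3 P hNS hnn M hMn
        intro x hx
        rw [hM]
        obtain ⟨a, ha⟩ := pel_of_mem P hx
        exact ⟨a, by rw [← map_pow, ha, map_one]⟩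
      intro x
      obtain ⟨g, rfl⟩ := QuotientGroup.mk_surjective x
      exact (hM g).mp (by rw [hMt]; trivial)
    obtain ⟨j, hj⟩ := IsPGroup.iff_card.mp h1
    refine ⟨j, ?_⟩
    rw [hK, ← hj]
    rfl
  -- proper invariant subgroups
  have hprop : ∀ L : Subgroup G, L < K → (∀ x ∈ (P : Subgroup G), ∀ l ∈ L, x * l * x⁻¹ ∈ L) →
      ∀ x ∈ (P : Subgroup G), ∀ l ∈ L, x * l = l * x := by
    intro L hLK hinv x hx l hl
    obtain ⟨T, hT⟩ : ∃ T : Subgroup G, ∀ g, g ∈ T ↔ ∃ x ∈ (P : Subgroup G), ∃ l ∈ L, x * l = g := by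
      refine ⟨{ carrier := {g | ∃ x ∈ (P : Subgroup G), ∃ l ∈ L, x * l = g}
                mul_mem' := ?_
                one_mem' := ⟨1, one_mem _, 1, one_mem _, by simp⟩
                inv_mem' := ?_ }, fun g => Iff.rfl⟩
      · rintro _ _ ⟨x, hx, l, hl, rfl⟩ ⟨y, hy, m, hm, rfl⟩
        refine ⟨x * y, mul_mem hx hy, y⁻¹ * l * y⁻¹⁻¹ * m, mul_mem (hinv y⁻¹ (inv_mem hy) l hl) hm, ?_⟩
        group
      · rintro _ ⟨x, hx, l, hl, rfl⟩
        refine ⟨x⁻¹, inv_mem hx, x * l⁻¹ * x⁻¹, hinv x hx l⁻¹ (inv_mem hl), ?_⟩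
        group
    have hTt : T ≠ ⊤ := by
      intro h1
      apply hLK.not_ge
      intro k hk
      obtain ⟨y, hy, m, hm, hym⟩ := (hT k).mp (by rw [h1]; trivial)
      have h2 : y = 1 := by
        apply hpel y hy
        have : y = k * m⁻¹ := by rw [← hym]; group
        rw [this]
        exact mul_mem hk (inv_mem (hLK.le hm))
      rw [← hym, h2, one_mul]
      exact hm
    have hPT : (P : Subgroup G) ≤ T := fun y hy => (hT y).mpr ⟨y, hy, 1, one_mem _, mul_one y⟩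
    have hlT : l ∈ T := (hT l).mpr ⟨1, one_mem _, l, hl, one_mul l⟩
    have h2 : l * x⁻¹ * l⁻¹ ∈ P := (hNS T hTt).mem_sylow P hPT (mul_mem (mul_mem hlT (inv_mem (hPT hx))) (inv_mem hlT))
      (pel_conj (pel_of_mem P (inv_mem hx)) l)
    have h3 : x * l * x⁻¹ * l⁻¹ ∈ P := by
      have : x * l * x⁻¹ * l⁻¹ = x * (l * x⁻¹ * l⁻¹) := by group
      rw [this]; exact mul_mem hx h2
    have h4 : x * l * x⁻¹ * l⁻¹ ∈ K := mul_mem (hLK.le (hinv x hx l hl)) (inv_mem (hLK.le hl))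
    have h5 := hpel _ h3 h4
    have h6 : x * l * x⁻¹ = l := mul_inv_eq_one.mp h5
    calc x * l = x * l * x⁻¹ * x := by group
      _ = l * x := by rw [h6]
  have hnc : ∃ x ∈ (P : Subgroup G), ∃ k ∈ K, x * k ≠ k * x := by
    by_contra hcon
    push Not at hcon
    have hCP : Subgroup.centralizer ((P : Subgroup G) : Set G) = ⊤ := by
      apply step3 P hNS hnn
      · refine ⟨fun h hh g => ?_⟩
        have h1 : g * h * g⁻¹ = (g * h * g⁻¹ * h⁻¹) * h := by group
        rw [h1]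
        refine mul_mem ?_ hh
        rw [Subgroup.mem_centralizer_iff]
        intro x hx
        apply hcon x hx
        rw [hK]
        exact Subgroup.commutator_mem_commutator (Subgroup.mem_top _) (Subgroup.mem_top _)
      · intro x hx
        rw [Subgroup.mem_centralizer_iff]
        intro y hy
        exact hab y hy x hx
    apply hnn
    refine ⟨fun x hx g => ?_⟩
    have h1 : g ∈ Subgroup.centralizer ((P : Subgroup G) : Set G) := by rw [hCP]; trivial
    rw [Subgroup.mem_centralizer_iff] at h1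
    rw [← h1 x hx, mul_assoc, mul_inv_cancel, mul_one]
    exact hx
  refine ⟨K, hKn, hpK, hindex, ?_, hprop, hnc⟩
  intro hcomm
  obtain ⟨j, hj⟩ := hindex
  obtain ⟨x₀, hx₀, k₀, hk₀, hne₀⟩ := hnc
  have hKb : K ≠ ⊥ := by
    intro h1
    rw [h1, Subgroup.mem_bot] at hk₀
    rw [hk₀] at hne₀
    simp at hne₀
  obtain ⟨C, hC⟩ : ∃ C : Subgroup G, ∀ c, c ∈ C ↔ c ∈ K ∧ ∀ x ∈ P, x * c = c * x :=
    ⟨K ⊓ Subgroup.centralizer (P : Set G), fun c => by
      rw [Subgroup.mem_inf, Subgroup.mem_centralizer_iff]; rfl⟩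
  have hCK : C ≤ K := fun c hc => ((hC c).mp hc).1
  have hall : Nat.card K ∣ Nat.card C := by
    rw [← Nat.factorization_prime_le_iff_dvd Nat.card_pos.ne' Nat.card_pos.ne']
    intro q hq
    obtain ⟨L, hLK, hLinv, hLq, hLc⟩ := exists_inv_sylow P hKn hpK hj hq
    have hlt : L < K := by
      rcases hLK.lt_or_eq with h1 | h1
      · exact h1
      · exfalso
        exact comm_ne_of_qgroup hq (h1 ▸ hLq) hKb hcomm
    have hLC : L ≤ C := fun l hl => (hC l).mpr ⟨hLK hl, fun x hx => hprop L hlt hLinv x hx l hl⟩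
    rw [← hq.pow_dvd_iff_le_factorization Nat.card_pos.ne', ← hLc]
    exact Subgroup.card_dvd_of_le hLC
  have hCKe : C = K := Subgroup.eq_of_le_of_card_ge hCK (Nat.le_of_dvd Nat.card_pos hall)
  apply hne₀
  rw [← hCKe] at hk₀
  exact ((hC k₀).mp hk₀).2 x₀ hx₀

end Min

end Cfsg.Agent.H3.SmallRep
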