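import Mathlib
import Cfsg.Prelude.Def_Characters
import Cfsg.Agent.H3_SmallRep3
import Cfsg.Agent.H3_Extraspecial

/-!
# Normal Sylow subgroups of groups with a representation of small degree: the main theorem
-/

set_option autoImplicit false

open scoped ComplexConjugate

namespace Cfsg.Agent.H3.SmallRep

open Cfsg Cfsg.Agent.H3.CharBasic Cfsg.Agent.H3.CharIrr Cfsg.Agent.H3.CharInt Cfsg.Agent.H3.CharCalc
  Cfsg.Agent.H3.CharComplete Cfsg.Agent.H3.CharInd Cfsg.Agent.H3.CharMult Cfsg.Agent.H3.CharQuot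
  Cfsg.Agent.H3.Clifford Cfsg.Agent.H3.CentTI

universe u

theorem main {p n : ℕ} [hp : Fact p.Prime] (hn : n + 1 < p) : ∀ (m : ℕ) (G : Type u) [Group G] [Fintype G], Nat.card G = m →
    ∀ (χ : G → ℂ), IsCharacter G χ → χ 1 = n → (∀ g, χ g = χ 1 → g = 1) →
    ((n + 1) ^ 2 ≤ p ∨ ∀ K : Subgroup G, ¬ p ^ 2 ∣ Nat.card K → NS p K) → NS p (⊤ : Subgroup G) := by
  intro m
  induction m using Nat.strong_induction_on with
  | _ m ih =>
  intro G _ _ hm χ hχ hχn hf hcase
  classical
  have : Fintype (IrrCharacter G) := Fintype.ofFinite _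
  by_contra hnot
  obtain ⟨P⟩ : Nonempty (Sylow p G) := inferInstance
  have hnn : ¬ (P : Subgroup G).Normal := fun h => hnot (NS_top_of_normal P h)
  have hNS : ∀ K : Subgroup G, K ≠ ⊤ → NS p K := by
    intro K hK
    have : Fintype K := Fintype.ofFinite _
    have hlt : Nat.card K < m := by
      rw [← hm]
      exact lt_of_le_of_ne (Nat.card_le_card_of_injective _ K.subtype_injective)
        (fun h => hK (Subgroup.card_eq_iff_eq_top K |>.mp h))
    have h1 : NS p (⊤ : Subgroup K) := by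
      apply ih _ hlt K rfl (fun k : K => χ k) (IsChar.res hχ K) hχn
      · intro k hk
        exact Subtype.ext (hf k hk)
      · rcases hcase with h | h
        · exact Or.inl h
        · right
          intro L hL
          have h2 : NS p (L.map K.subtype) := by
            apply h
            rwa [Subgroup.card_map_of_injective K.subtype_injective]
          intro x hx y hy ⟨a, ha⟩ ⟨b, hb⟩
          obtain ⟨c, hc⟩ := h2 x ⟨x, hx, rfl⟩ y ⟨y, hy, rfl⟩ ⟨a, by exact_mod_cast congrArg Subtype.val ha⟩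
            ⟨b, by exact_mod_cast congrArg Subtype.val hb⟩
          exact ⟨c, Subtype.ext (by push_cast; exact hc)⟩
    intro x hx y hy ⟨a, ha⟩ ⟨b, hb⟩
    obtain ⟨c, hc⟩ := h1 ⟨x, hx⟩ (Subgroup.mem_top _) ⟨y, hy⟩ (Subgroup.mem_top _) ⟨a, Subtype.ext (by push_cast; exact ha)⟩
      ⟨b, Subtype.ext (by push_cast; exact hb)⟩
    exact ⟨c, congrArg Subtype.val hc⟩
  have hab : ∀ a ∈ P, ∀ b ∈ P, a * b = b * a := by
    intro a ha b hb
    have h1 := Cfsg.Agent.H3.SmallDeg.sylow_small P hχ hχn (by omega) ha hb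
    have h2 := hf _ h1
    have h3 : a * b * a⁻¹ = b := mul_inv_eq_one.mp h2
    calc a * b = a * b * a⁻¹ * a := by group
      _ = b * a := by rw [h3]
  by_cases hZ : (P : Subgroup G) ⊓ Subgroup.center G = ⊥
  · -- the trivial intersection case
    have hone := step4 P hab hNS hZ
    -- a nonlinear constituent
    obtain ⟨m', hm', hχm⟩ := IsChar.eq_sum_nat hχ
    have hdeg : ∀ ξ : IrrCharacter G, ∃ d : ℕ, 0 < d ∧ (ξ : G → ℂ) 1 = d := fun ξ => IsIrr.one_eq_nat ξ.2
    choose dd hdd0 hdd using hdeg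
    have hval : ∀ g, χ g = ∑ ξ : IrrCharacter G, (m' ξ : ℂ) * (ξ : G → ℂ) g := by
      intro g
      have := congrFun hχm g
      rw [Finset.sum_apply] at this
      exact this
    obtain ⟨ξ, hξm, hξ1⟩ : ∃ ξ : IrrCharacter G, m' ξ ≠ 0 ∧ dd ξ ≠ 1 := by
      by_contra hcon
      push Not at hcon
      apply hnn
      refine ⟨fun x hx g => ?_⟩
      have h1 : g * x * g⁻¹ * x⁻¹ = 1 := by
        apply hf
        rw [hval, hval 1]
        apply Finset.sum_congr rfl
        intro ξ _
        by_cases h1 : m' ξ = 0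
        · rw [h1]; simp
        · have h2 : (ξ : G → ℂ) 1 = 1 := by rw [hdd, hcon ξ h1]; simp
          rw [Cfsg.Agent.H3.Extraspecial.commutator_of_one (IsIrr.isCharacter ξ.2) h2 (g * x * g⁻¹ * x⁻¹)
            (Subgroup.commutator_mem_commutator (Subgroup.mem_top g) (Subgroup.mem_top x)), h2]
      rw [mul_inv_eq_one.mp h1]
      exact hx
    have hξn : dd ξ ≤ n := by
      have h1 : n = ∑ ξ : IrrCharacter G, m' ξ * dd ξ := by
        have h2 := hval 1
        rw [hχn] at h2
        have h3 : (n : ℂ) = ((∑ ξ : IrrCharacter G, m' ξ * dd ξ : ℕ) : ℂ) := by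
          rw [h2]; push_cast
          exact Finset.sum_congr rfl (fun ψ _ => by rw [hdd])
        exact_mod_cast h3
      have h2 : m' ξ * dd ξ ≤ ∑ ψ : IrrCharacter G, m' ψ * dd ψ :=
        Finset.single_le_sum (f := fun ψ : IrrCharacter G => m' ψ * dd ψ) (fun _ _ => Nat.zero_le _) (Finset.mem_univ ξ)
      have h3 : 1 * dd ξ ≤ m' ξ * dd ξ := Nat.mul_le_mul_right _ (Nat.one_le_iff_ne_zero.mpr hξm)
      omega
    have hlt := main2 (P : Subgroup G) hab hZ hone ξ.2 (hdd ξ) hξ1 (fun M hM hPM => step3 P hNS hnn M hM hPM)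
    have hlt' : Nat.card P < (n + 1) ^ 2 := lt_of_lt_of_le hlt (by
      have : 1 + dd ξ ≤ n + 1 := by omega
      exact Nat.pow_le_pow_left this 2)
    have hp1 : p ∣ Nat.card P := by
      apply P.dvd_card_of_dvd_card
      by_contra h1
      apply hnn
      have h2 : (P : Subgroup G) = ⊥ := by
        rw [Subgroup.eq_bot_iff_forall]
        intro x hx
        obtain ⟨a, ha⟩ := pel_of_mem P hx
        have h3 : (p ^ a).Coprime (Nat.card G) := Nat.Coprime.pow_left a ((Nat.Prime.coprime_iff_not_dvd hp.out).mpr h1)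
        exact orderOf_eq_one_iff.mp (Nat.eq_one_of_dvd_coprimes h3 (orderOf_dvd_of_pow_eq_one ha) (orderOf_dvd_natCard x))
      rw [h2]; infer_instance
    rcases hcase with h | h
    · have := Nat.le_of_dvd Nat.card_pos hp1
      omega
    · have h1 : p ^ 2 ∣ Nat.card (⊤ : Subgroup G) := by
        by_contra h2
        exact hnot (h ⊤ h2)
      rw [Subgroup.card_top] at h1
      have h2 := Nat.le_of_dvd Nat.card_pos (P.pow_dvd_card_of_pow_dvd_card h1)
      have h3 : (n + 1) ^ 2 ≤ p ^ 2 := Nat.pow_le_pow_left (by omega) 2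
      omega
  · obtain ⟨K, hKn, hpK, hindex, hcomm, hprop, hnc⟩ := step5 P hab hNS hnn hZ
    exact fin_contra hp.out hn hχ hχn hf (P : Subgroup G) P.2 K hKn hpK hindex hcomm hprop hnc

end Cfsg.Agent.H3.SmallRep
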