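import Cfsg.Statements.S0899
import Cfsg.Agent.H3_SmallRep4

set_option autoImplicit false
open Cfsg

namespace Cfsg.Agent.S0899

open Cfsg.Agent.H3.CharBasic Cfsg.Agent.H3.CharIrr Cfsg.Agent.H3.CharQuot Cfsg.Agent.H3.SmallRep

/-- Let G be a finite group with a faithful complex representation of degree n (on Fin n → ℂ) and p a prime. Suppose either that (n + 1) ^ 2 ≤ p, or that n + 1 < p and every subgroup of G whose order is not divisible by p ^ 2 has a normal Sylow p-subgroup. Then every Sylow p-subgroup of G is normal. -/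
theorem result {G : Type*} [Group G] [Finite G] (n : ℕ) (ρ : Representation ℂ G (Fin n → ℂ)) (hρ : Function.Injective ρ) (p : ℕ) [Fact p.Prime] (h : (n + 1) ^ 2 ≤ p ∨ (n + 1 < p ∧ ∀ K : Subgroup G, ¬ p ^ 2 ∣ Nat.card K → ∀ Q : Sylow p K, (Q : Subgroup K).Normal)) (P : Sylow p G) : (P : Subgroup G).Normal := by
  classical
  have : Fintype G := Fintype.ofFinite _
  have hn : n + 1 < p := by
    rcases h with h | h
    · rcases Nat.eq_zero_or_pos n with h0 | h0
      · rw [h0]
        have := (Fact.out : p.Prime).one_lt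
        omega
      · have h1 : n + 1 < (n + 1) ^ 2 := by nlinarith
        omega
    · exact h.1
  have h1 : ρ.character 1 = n := by
    rw [Representation.char_one]; simp
  apply normal_of_NS_top
  refine main (n := n) hn _ G rfl ρ.character ⟨n, ρ, rfl⟩ h1 ?_ ?_
  · intro g hg
    apply hρ
    rw [map_one]
    exact (rep_eq_one_iff ρ g).mpr hg
  · rcases h with h | h
    · exact Or.inl h
    · right
      intro K hK x hx y hy hxp hyp
      obtain ⟨Q⟩ : Nonempty (Sylow p K) := inferInstance
      have h2 := NS_top_of_normal Q (h.2 K hK Q)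
      obtain ⟨a, ha⟩ := hxp
      obtain ⟨b, hb⟩ := hyp
      obtain ⟨c, hc⟩ := h2 ⟨x, hx⟩ (Subgroup.mem_top _) ⟨y, hy⟩ (Subgroup.mem_top _)
        ⟨a, Subtype.ext (by push_cast; exact ha)⟩ ⟨b, Subtype.ext (by push_cast; exact hb)⟩
      exact ⟨c, congrArg Subtype.val hc⟩

end Cfsg.Agent.S0899
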