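import Mathlib
import Cfsg.Prelude.Def_Characters
import Cfsg.Prelude.Def_Blocks
import Cfsg.Agent.H3_PrimeDeg
import Cfsg.Agent.H3_SmallDeg
import Cfsg.Agent.H3_GlCyc
import Cfsg.Agent.S0899
import Cfsg.Agent.S4456
import Cfsg.Agent.S4713
import Cfsg.Agent.H22_PSolv2

/-!
# Groups all of whose irreducible character degrees are less than `p`
-/

set_option autoImplicit false

open scoped ComplexConjugate commutatorElement

namespace Cfsg.Agent.H3.DegLt

open Cfsg Cfsg.Agent.H3.CharBasic Cfsg.Agent.H3.CharIrr Cfsg.Agent.H3.CharComplete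
  Cfsg.Agent.H3.CharMult Cfsg.Agent.H3.CharInd Cfsg.Agent.H3.CharInt Cfsg.Agent.H3.CharQuot
  Cfsg.Agent.H3.PrimeDeg Cfsg.Agent.H3.Clifford

theorem charDegree_cast {G : Type*} [Group G] [Finite G] {χ : G → ℂ} (hχ : IsIrrCharacter G χ) :
    χ 1 = (charDegree χ : ℂ) := by
  obtain ⟨m, -, hm⟩ := IsIrr.one_eq_nat hχ
  have : charDegree χ = m := by
    rw [charDegree, hm, Complex.natCast_re, Nat.floor_natCast]
  rw [this, hm]

theorem relIndex_ne_one {G : Type*} [Group G] [Finite G] [IsSimpleGroup G] (hna : ¬ ∀ a b : G, a * b = b * a)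
    {p : ℕ} [hp : Fact p.Prime] (P : Sylow p G) (hP : Nat.card P = p) :
    (Subgroup.centralizer ((P : Subgroup G) : Set G)).relIndex
      (Subgroup.normalizer ((P : Subgroup G) : Set G)) ≠ 1 := by
  intro h1
  have hle := Subgroup.relIndex_eq_one.mp h1
  have hcompl := MonoidHom.ker_transferSylow_isComplement' P hle
  rcases (MonoidHom.normal_ker (MonoidHom.transferSylow P hle)).eq_bot_or_eq_top with h2 | h2
  · rw [h2] at hcompl
    have h3 : (P : Subgroup G) = ⊤ := by
      have := hcompl.sup_eq_top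
      rwa [bot_sup_eq] at this
    have h4 : Nat.card G = p := by
      rw [← hP, h3, Subgroup.card_top]
    have hcyc : IsCyclic G := isCyclic_of_prime_card h4
    exact hna (IsCyclic.commGroup).mul_comm
  · rw [h2] at hcompl
    have h3 : (P : Subgroup G) = ⊥ := by
      have := hcompl.disjoint
      rwa [top_disjoint] at this
    rw [h3, Subgroup.card_bot] at hP
    exact hp.out.one_lt.ne hP

theorem relIndex_le {G : Type*} [Group G] [Finite G] {p : ℕ} [hp : Fact p.Prime] (P : Subgroup G) (hP : Nat.card P = p) :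
    (Subgroup.centralizer (P : Set G)).relIndex (Subgroup.normalizer (P : Set G)) ≤ p - 1 := by
  have hcyc : IsCyclic P := isCyclic_of_prime_card hP
  have h1 : (Subgroup.centralizer (P : Set G)).relIndex (Subgroup.normalizer (P : Set G)) =
      Nat.card P.normalizerMonoidHom.range := by
    rw [← Subgroup.index_ker, Subgroup.normalizerMonoidHom_ker]; rfl
  rw [h1]
  have h2 : Nat.card (MulAut P) = p - 1 := by
    rw [IsCyclic.card_mulAut, hP, Nat.totient_prime hp.out]
  have h3 : 0 < Nat.card (MulAut P) := Nat.card_pos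
  rw [← h2]
  exact Nat.le_of_dvd h3 (Subgroup.card_subgroup_dvd_card _)

/-- norms of characters of abelian groups -/
theorem ab_lower {A : Type*} [Group A] [Fintype A] (hA : ∀ a b : A, a * b = b * a) {χ : A → ℂ} (hχ : IsCharacter A χ)
    {m : ℕ} (hm : χ 1 = m) : (Nat.card A : ℝ) * m ≤ ∑ x : A, ‖χ x‖ ^ 2 := by
  classical
  have iI := Fintype.ofFinite (IrrCharacter A)
  choose n hn using fun ψ : IrrCharacter A => ci_char_nat hχ (IsIrr.isCharacter ψ.2)
  have h1 := IsChar.norm_eq_sum_sq (n := n) hn hχ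
  have h2 := expand_apply χ (IsChar.isClass hχ) 1
  have h3 : m = ∑ ψ : IrrCharacter A, n ψ := by
    have : (m : ℂ) = ((∑ ψ : IrrCharacter A, n ψ : ℕ) : ℂ) := by
      rw [← hm, h2]
      push_cast
      refine Finset.sum_congr rfl fun ψ _ => ?_
      rw [hn ψ, IsIrr.one_of_comm hA ψ.2, mul_one]
    exact_mod_cast this
  have h4 : m ≤ ∑ ψ : IrrCharacter A, n ψ ^ 2 := by
    rw [h3]
    exact Finset.sum_le_sum fun ψ _ => Nat.le_self_pow (by norm_num) _
  have h5 : ((∑ x : A, ‖χ x‖ ^ 2 : ℝ) : ℂ) = Nat.card A * ((∑ ψ : IrrCharacter A, n ψ ^ 2 : ℕ) : ℂ) := by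
    rw [← h1, classInner, ← mul_assoc, mul_inv_cancel₀ card_cast_ne_zero, one_mul]
    push_cast
    refine Finset.sum_congr rfl fun x _ => ?_
    rw [Complex.mul_conj, Complex.normSq_eq_norm_sq]
    push_cast; rfl
  have h6 : (∑ x : A, ‖χ x‖ ^ 2 : ℝ) = Nat.card A * ((∑ ψ : IrrCharacter A, n ψ ^ 2 : ℕ) : ℝ) := by
    exact_mod_cast h5
  rw [h6]
  exact mul_le_mul_of_nonneg_left (by exact_mod_cast h4) (by positivity)

theorem arith {p e d : ℕ} {ε : ℤ} (hp : 3 < p) (he : 2 ≤ e) (hep : e ≤ p - 1) (hε : ε = 1 ∨ ε = -1) (hd0 : 0 < d) (hdp : d < p)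
    (hmod : (d : ℤ) ≡ ε * e [ZMOD p])
    (h : ε * d = 1 - (e - 1) * (p - 1) ∨ ε * d = -(e * ((p : ℤ) - 1))) :
    ε = -1 ∧ e = 2 ∧ d + 2 = p ∧ ε * d = 1 - ((e : ℤ) - 1) * (p - 1) := by
  have hp' : (3 : ℤ) < p := by exact_mod_cast hp
  have he' : (2 : ℤ) ≤ e := by exact_mod_cast he
  have hd0' : (0 : ℤ) < d := by exact_mod_cast hd0
  have hdp' : (d : ℤ) < p := by exact_mod_cast hdp
  have hep' : (e : ℤ) ≤ p - 1 := by
    have : e + 1 ≤ p := by omega
    have : (e : ℤ) + 1 ≤ p := by exact_mod_cast this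
    linarith
  rcases hε with rfl | rfl
  · exfalso
    rcases h with h | h
    · nlinarith
    · nlinarith
  · have hd : (d : ℤ) = p - e := by
      obtain ⟨c, hc⟩ := Int.modEq_iff_dvd.mp hmod
      have h1 : (p : ℤ) * (-c) = d + e := by linarith
      have h2 : -c = 1 := by
        have h3 : 0 < -c := by
          by_contra hcon
          push Not at hcon
          nlinarith
        have h4 : -c < 2 := by
          by_contra hcon
          push Not at hcon
          nlinarith
        omega
      rw [h2] at h1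
      linarith
    rcases h with h | h
    · have h1 : ((e : ℤ) - 2) * p = 0 := by
        rw [hd] at h
        linear_combination h
      have h2 : (e : ℤ) = 2 := by
        rcases mul_eq_zero.mp h1 with h3 | h3
        · linarith
        · exfalso; linarith
      refine ⟨rfl, by exact_mod_cast h2, ?_, h⟩
      rw [h2] at hd
      have : (d : ℤ) + 2 = p := by linarith
      exact_mod_cast this
    · exfalso
      rw [hd] at h
      nlinarith

/-- sum over the non-identity elements of a subgroup of prime order -/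
theorem lower {G : Type*} [Group G] [Fintype G] {p : ℕ} (hp : p.Prime) (P : Subgroup G) [Fintype P]
    [DecidableEq P] (hP : Nat.card P = p) {χ : G → ℂ} (hχ : IsIrrCharacter G χ) {m : ℕ} (hm : χ 1 = m) :
    (m : ℝ) * (p - m) ≤ ∑ x ∈ Finset.univ.erase (1 : P), ‖χ (x : G)‖ ^ 2 := by
  have hF := Fact.mk hp
  have hcyc : IsCyclic P := isCyclic_of_prime_card hP
  have h1 := ab_lower (A := P) (IsCyclic.commGroup).mul_comm (IsChar.res (IsIrr.isCharacter hχ) P) (m := m)
    (by show χ 1 = m; exact hm)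
  rw [← Finset.add_sum_erase _ _ (Finset.mem_univ (1 : P)), hP] at h1
  have h2 : ‖χ ((1 : P) : G)‖ ^ 2 = (m : ℝ) ^ 2 := by
    rw [OneMemClass.coe_one, hm, Complex.norm_natCast]
  rw [h2] at h1
  linarith

theorem prime_case {G : Type*} [Group G] [Finite G] [IsSimpleGroup G] (hna : ¬ ∀ a b : G, a * b = b * a)
    {p : ℕ} [hp : Fact p.Prime] (hp3 : 3 < p) (hb : ∀ χ : IrrCharacter G, charDegree (χ : G → ℂ) < p)
    (P : Sylow p G) (hP : Nat.card P = p) : False := by
  classical
  have iG := Fintype.ofFinite G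
  have iIrr := Fintype.ofFinite (IrrCharacter G)
  have iP : Fintype (P : Subgroup G) := Fintype.ofFinite _
  obtain ⟨M, hM⟩ := H10.BlockKn.exists_modular hp.out
  have hPcyc : IsCyclic (P : Subgroup G) := isCyclic_of_prime_card hP
  have hPcomm : ∀ a ∈ (P : Subgroup G), ∀ b ∈ (P : Subgroup G), a * b = b * a := by
    intro a ha b hb
    exact congrArg Subtype.val ((IsCyclic.commGroup (α := (P : Subgroup G))).mul_comm ⟨a, ha⟩ ⟨b, hb⟩)
  obtain ⟨C, hC⟩ : ∃ C, C = Subgroup.centralizer ((P : Subgroup G) : Set G) := ⟨_, rfl⟩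
  obtain ⟨e, he⟩ : ∃ e, (Subgroup.centralizer ((P : Subgroup G) : Set G)).relIndex
      (Subgroup.normalizer ((P : Subgroup G) : Set G)) = e := ⟨_, rfl⟩
  have he0 : e ≠ 0 := he ▸ Subgroup.index_ne_zero_of_finite
  have he1 : e ≠ 1 := he ▸ relIndex_ne_one hna P hP
  have hele : e ≤ p - 1 := he ▸ relIndex_le (P : Subgroup G) hP
  obtain ⟨X, Y, hXY, hdisj, hX, hY, εX, ε, hXd, hε, hYd, hYreg, hYrel⟩ := S4441.result p M hM (by omega) P hP e he
  have iX : Fintype X := Fintype.ofFinite _
  have iY : Fintype Y := Fintype.ofFinite _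
  have hdeg : ∀ χ : IrrCharacter G, (χ : G → ℂ) 1 = (charDegree (χ : G → ℂ) : ℂ) := fun χ => charDegree_cast χ.2
  have hpos : ∀ χ : IrrCharacter G, 0 < charDegree (χ : G → ℂ) := fun χ => H10.Char.charDegree_pos χ.2
  have hpne : ¬ p ∣ orderOf (1 : G) := by
    rw [orderOf_one]
    intro h
    exact hp.out.one_lt.ne' (Nat.dvd_one.mp h)
  -- trivial character
  have htriv1 : ∀ χ : IrrCharacter G, charDegree (χ : G → ℂ) = 1 → (χ : G → ℂ) = fun _ => 1 := by
    intro χ h1
    have h2 : (χ : G → ℂ) 1 = 1 := by rw [hdeg, h1, Nat.cast_one]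
    obtain ⟨f, hf⟩ := IsChar.hom_units_of_one (IsIrr.isCharacter χ.2) h2
    funext g
    rw [hf g, hom_trivial hna f g]; rfl
  -- degrees in `X`
  have hXdeg : ∀ χ ∈ X, (charDegree (χ : G → ℂ) = 1 ∧ εX χ = 1) ∨ (charDegree (χ : G → ℂ) + 1 = p ∧ εX χ = -1) := by
    intro χ hχ
    obtain ⟨h1, h2, -⟩ := hXd χ hχ
    obtain ⟨c, hc⟩ := Int.modEq_iff_dvd.mp h2
    have h3 := hb χ
    have h4 := hpos χ
    have h3' : (charDegree (χ : G → ℂ) : ℤ) < p := by exact_mod_cast h3
    have h4' : (0 : ℤ) < charDegree (χ : G → ℂ) := by exact_mod_cast h4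
    rcases h1 with h1 | h1
    · left
      refine ⟨?_, h1⟩
      rw [h1] at hc
      have h5 : c = 0 := by
        by_contra hne
        rcases lt_or_gt_of_ne hne with h6 | h6
        · nlinarith
        · nlinarith
      rw [h5] at hc
      have : (charDegree (χ : G → ℂ) : ℤ) = 1 := by linarith
      exact_mod_cast this
    · right
      refine ⟨?_, h1⟩
      rw [h1] at hc
      have h5 : c = -1 := by
        have h6 : (p : ℤ) * (-c) = charDegree (χ : G → ℂ) + 1 := by linarith
        have h7 : 0 < -c := by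
          by_contra hcon
          push Not at hcon
          nlinarith
        have h8 : -c < 2 := by
          by_contra hcon
          push Not at hcon
          nlinarith
        omega
      rw [h5] at hc
      have : (charDegree (χ : G → ℂ) : ℤ) + 1 = p := by linarith
      exact_mod_cast this
  -- an element of `Y`
  have hYne : Y.Nonempty := by
    rw [Set.nonempty_iff_ne_empty]
    rintro rfl
    have h1 : (p - 1) / e = 0 := by rw [← hY]; simp
    rw [Nat.div_eq_zero_iff] at h1
    omega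
  obtain ⟨θ, hθ⟩ := hYne
  have hXcard : X.toFinset.card = e := by
    rw [← hX, Nat.card_eq_fintype_card, Set.toFinset_card]
  have hrel1 := hYrel θ hθ 1 hpne
  rw [finsum_mem_eq_toFinset_sum] at hrel1
  have hrelZ : ε * (charDegree (θ : G → ℂ) : ℤ) = ∑ χ ∈ X.toFinset, εX χ * (charDegree (χ : G → ℂ) : ℤ) := by
    simp only [hdeg] at hrel1
    exact_mod_cast hrel1
  let tr : IrrCharacter G := H10.BlockKer.triv G
  have htr : (tr : G → ℂ) = fun _ => 1 := rfl
  have htrd : charDegree (tr : G → ℂ) = 1 := by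
    have h1 : (1 : ℂ) = (charDegree (tr : G → ℂ) : ℂ) := hdeg tr
    exact_mod_cast h1.symm
  have hothers : ∀ χ ∈ X.toFinset.erase tr, εX χ * (charDegree (χ : G → ℂ) : ℤ) = -((p : ℤ) - 1) := by
    intro χ hχ
    rw [Finset.mem_erase, Set.mem_toFinset] at hχ
    rcases hXdeg χ hχ.2 with ⟨h1, h2⟩ | ⟨h1, h2⟩
    · exact absurd (Subtype.ext (htriv1 χ h1)) hχ.1
    · rw [h2]
      have : (charDegree (χ : G → ℂ) : ℤ) + 1 = p := by exact_mod_cast h1
      linarith
  have hcase : ε * (charDegree (θ : G → ℂ) : ℤ) = 1 - ((e : ℤ) - 1) * (p - 1) ∧ tr ∈ X ∨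
      ε * (charDegree (θ : G → ℂ) : ℤ) = -(e * ((p : ℤ) - 1)) ∧ tr ∉ X := by
    by_cases htX : tr ∈ X
    · left
      refine ⟨?_, htX⟩
      rw [hrelZ, ← Finset.add_sum_erase _ _ (Set.mem_toFinset.mpr htX), Finset.sum_congr rfl hothers,
        Finset.sum_const, Finset.card_erase_of_mem (Set.mem_toFinset.mpr htX), hXcard]
      rcases hXdeg tr htX with ⟨h1, h2⟩ | ⟨h1, h2⟩
      · rw [h1, h2]
        have : ((e - 1 : ℕ) : ℤ) = (e : ℤ) - 1 := by
          have : 1 ≤ e := Nat.one_le_iff_ne_zero.mpr he0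
          push_cast [this]; ring
        rw [nsmul_eq_mul, this]
        push_cast; ring
      · omega
    · right
      refine ⟨?_, htX⟩
      have h1 : X.toFinset.erase tr = X.toFinset := Finset.erase_eq_of_notMem (by rw [Set.mem_toFinset]; exact htX)
      rw [hrelZ, ← h1, Finset.sum_congr rfl hothers, Finset.sum_const, h1, hXcard, nsmul_eq_mul]
      ring
  obtain ⟨hε1, he2, -, hrel2⟩ := arith hp3 (by omega) hele hε (hpos θ) (hb θ) (hYd θ hθ) (by
    rcases hcase with h | h
    · left; exact h.1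
    · right; exact h.1)
  have hYdeg : ∀ θ ∈ Y, charDegree (θ : G → ℂ) + 2 = p := by
    intro θ' hθ'
    have h1 := hYreg θ' hθ' θ hθ 1 hpne
    rw [hdeg, hdeg] at h1
    have h2 : charDegree (θ' : G → ℂ) = charDegree (θ : G → ℂ) := by exact_mod_cast h1
    rw [h2]
    obtain ⟨-, -, h3, -⟩ := arith hp3 (by omega) hele hε (hpos θ) (hb θ) (hYd θ hθ) (by
      rcases hcase with h | h
      · left; exact h.1
      · right; exact h.1)
    exact h3
  have htX : tr ∈ X := by
    rcases hcase with h | h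
    · exact h.2
    · exfalso
      have h1 := h.1
      rw [hrel2, he2] at h1
      have hp' : (3 : ℤ) < p := by exact_mod_cast hp3
      push_cast at h1
      linarith
  -- the second character of `X`
  obtain ⟨χ, hχX, hχt, hXall⟩ : ∃ χ ∈ X, χ ≠ tr ∧ ∀ ζ ∈ X, ζ = tr ∨ ζ = χ := by
    have h1 : (X.toFinset.erase tr).card = 1 := by
      rw [Finset.card_erase_of_mem (Set.mem_toFinset.mpr htX), hXcard, he2]
    obtain ⟨χ, hχ⟩ := Finset.card_eq_one.mp h1
    have h2 : χ ∈ X.toFinset.erase tr := by rw [hχ]; exact Finset.mem_singleton_self _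
    rw [Finset.mem_erase, Set.mem_toFinset] at h2
    refine ⟨χ, h2.2, h2.1, fun ζ hζ => ?_⟩
    by_cases h3 : ζ = tr
    · exact Or.inl h3
    · right
      have h4 : ζ ∈ X.toFinset.erase tr := Finset.mem_erase.mpr ⟨h3, Set.mem_toFinset.mpr hζ⟩
      rw [hχ, Finset.mem_singleton] at h4
      exact h4
  have hχd : charDegree (χ : G → ℂ) + 1 = p ∧ εX χ = -1 := by
    rcases hXdeg χ hχX with h | h
    · exact absurd (Subtype.ext (htriv1 χ h.1)) hχt
    · exact h
  have hεtr : εX tr = 1 := by
    rcases hXdeg tr htX with h | h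
    · exact h.2
    · rw [htrd] at h; omega
  obtain ⟨s, hs⟩ := hp.out.odd_of_ne_two (by omega)
  have hYcard : Y.toFinset.card = (p - 1) / 2 := by
    rw [← he2, ← hY, Nat.card_eq_fintype_card, Set.toFinset_card]
  have hYs : Y.toFinset.card = s := by rw [hYcard]; omega
  -- the centralizer
  have iC : Fintype C := Fintype.ofFinite _
  have hPC : (P : Subgroup G) ≤ C := by
    intro x hx
    rw [hC, Subgroup.mem_centralizer_iff]
    intro y hy
    exact hPcomm y hy x hx
  have hreg1 : ∀ y ∈ C, ¬ p ∣ orderOf y → y = 1 := by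
    intro y hy hyp
    have hsum : ∀ y ∈ C, ¬ p ∣ orderOf y → ∑ x : (P : Subgroup G), (χ : G → ℂ) (x * y) = (χ : G → ℂ) y - (p - 1) := by
      intro y hy hyp
      rw [← Finset.add_sum_erase _ _ (Finset.mem_univ (1 : (P : Subgroup G)))]
      have h1 : ∀ x ∈ Finset.univ.erase (1 : (P : Subgroup G)), (χ : G → ℂ) (x * y) = -1 := by
        intro x hx
        have h2 := (hXd χ hχX).2.2 x x.2 (fun h => (Finset.ne_of_mem_erase hx) (Subtype.ext h)) y (hC ▸ hy) hyp
        rw [h2, hχd.2]; simp
      rw [Finset.sum_congr rfl h1, Finset.sum_const, Finset.card_erase_of_mem (Finset.mem_univ _), Finset.card_univ,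
        ← Nat.card_eq_fintype_card, hP, OneMemClass.coe_one, one_mul, nsmul_eq_mul]
      have : ((p - 1 : ℕ) : ℂ) = p - 1 := by
        have : 1 ≤ p := by omega
        push_cast [this]; ring
      rw [this]; ring
    have hn : ((P : Subgroup G).subgroupOf C).Normal := by
      constructor
      intro n hn c
      have h1 : (c : G) * n * (c : G)⁻¹ = n := by
        have h2 : (c : G) ∈ Subgroup.centralizer ((P : Subgroup G) : Set G) := hC ▸ c.2
        have h3 := Subgroup.mem_centralizer_iff.mp h2 n hn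
        rw [← h3, mul_inv_cancel_right]
      show (c : G) * n * (c : G)⁻¹ ∈ (P : Subgroup G)
      rw [h1]; exact hn
    have iN := Fintype.ofFinite ((P : Subgroup G).subgroupOf C)
    have htrans : ∀ c : C, avg ((P : Subgroup G).subgroupOf C) (fun c : C => (χ : G → ℂ) c) c =
        (Nat.card ((P : Subgroup G).subgroupOf C) : ℂ)⁻¹ * ∑ x : (P : Subgroup G), (χ : G → ℂ) (x * c) := by
      intro c
      rw [avg]
      congr 1
      rw [← Equiv.sum_comp (Subgroup.subgroupOfEquivOfLe hPC).toEquiv]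
      rfl
    have hA := avg_isChar hn (IsChar.res (IsIrr.isCharacter χ.2) C)
    have hχ1 : (χ : G → ℂ) 1 = (p : ℂ) - 1 := by
      rw [hdeg]
      have : (charDegree (χ : G → ℂ) : ℂ) + 1 = p := by exact_mod_cast hχd.1
      linear_combination this
    have h0 := GlCyc.IsChar.zero_of_one hA (by
      rw [htrans 1, OneMemClass.coe_one, hsum 1 (one_mem C) hpne, hχ1, sub_self, mul_zero])
    have h1 := congrFun h0 ⟨y, hy⟩
    rw [htrans, Pi.zero_apply] at h1
    have hN0 : (Nat.card ((P : Subgroup G).subgroupOf C) : ℂ)⁻¹ ≠ 0 := by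
      apply inv_ne_zero
      exact_mod_cast Nat.card_pos.ne'
    have h2 := (mul_eq_zero.mp h1).resolve_left hN0
    rw [hsum y hy hyp, ← hχ1] at h2
    apply one_of_norm hna χ.2 (by
      rw [hχ1]
      intro h
      have : (p : ℂ) = 2 := by linear_combination h
      have : p = 2 := by exact_mod_cast this
      omega)
    rw [sub_eq_zero.mp h2]
  have hCP : C ≤ (P : Subgroup G) := by
    rw [← Subgroup.relIndex_eq_one]
    by_contra hne
    obtain ⟨r, hr, hrd⟩ := Nat.exists_prime_and_dvd hne
    have hFr := Fact.mk hr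
    have hrC : r ∣ Nat.card C := hrd.trans (Subgroup.index_dvd_card _)
    obtain ⟨y, hy⟩ := exists_prime_orderOf_dvd_card' (G := C) r hrC
    have hrp : r ≠ p := by
      rintro rfl
      apply P.not_dvd_index
      rw [← Subgroup.relIndex_mul_index hPC]
      exact hrd.mul_right _
    have h1 := hreg1 y y.2 (by
      rw [Subgroup.orderOf_coe, hy, Nat.prime_dvd_prime_iff_eq hp.out hr]
      exact fun h => hrp h.symm)
    have h2 : y = 1 := Subtype.ext h1
    rw [h2, orderOf_one] at hy
    exact hr.one_lt.ne hy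
  have hcent : ∀ x ∈ (P : Subgroup G), x ≠ 1 → Nat.card (Subgroup.centralizer ({x} : Set G)) = p := by
    intro x hx hx1
    have hz : Subgroup.zpowers x = (P : Subgroup G) := by
      apply Subgroup.eq_of_le_of_card_ge (Subgroup.zpowers_le.mpr hx)
      rw [hP, Nat.card_zpowers]
      apply le_of_eq
      symm
      apply orderOf_eq_prime _ hx1
      have h1 : (⟨x, hx⟩ : (P : Subgroup G)) ^ p = 1 := by
        have := pow_card_eq_one' (x := (⟨x, hx⟩ : (P : Subgroup G)))
        rwa [hP] at this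
      exact congrArg Subtype.val h1
    have h1 : Subgroup.centralizer ({x} : Set G) = (P : Subgroup G) := by
      apply le_antisymm
      · apply le_trans _ hCP
        intro y hy
        rw [hC, Subgroup.mem_centralizer_iff]
        intro w hw
        have hw' : w ∈ Subgroup.zpowers x := by rw [hz]; exact hw
        obtain ⟨i, rfl⟩ := hw'
        have h2 := Subgroup.mem_centralizer_singleton_iff.mp hy
        exact ((show Commute y x from h2).zpow_right i).symm
      · intro y hy
        rw [Subgroup.mem_centralizer_singleton_iff]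
        exact hPcomm y hy x hx
    rw [h1, hP]
  -- lower bounds: no further characters
  have hall : ∀ ζ : IrrCharacter G, ζ ∈ X ∪ Y := by
    intro ζ
    by_contra hζ
    have hS : ∀ x ∈ Finset.univ.erase (1 : (P : Subgroup G)), ∑ ζ : IrrCharacter G, ‖(ζ : G → ℂ) x‖ ^ 2 = (p : ℝ) := by
      intro x hx
      have h1 := orth2 (G := G) (x : G) (x : G)
      rw [if_pos (IsConj.refl _), hcent x x.2 (fun h => (Finset.ne_of_mem_erase hx) (Subtype.ext h))] at h1
      have h2 : ((∑ ζ : IrrCharacter G, ‖(ζ : G → ℂ) x‖ ^ 2 : ℝ) : ℂ) = p := by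
        rw [← h1]
        push_cast
        refine Finset.sum_congr rfl fun ζ _ => ?_
        rw [Complex.mul_conj, Complex.normSq_eq_norm_sq]
        push_cast; rfl
      exact_mod_cast h2
    have htot : ∑ ζ : IrrCharacter G, ∑ x ∈ Finset.univ.erase (1 : (P : Subgroup G)), ‖(ζ : G → ℂ) x‖ ^ 2 =
        ((p : ℝ) - 1) * p := by
      rw [Finset.sum_comm, Finset.sum_congr rfl hS, Finset.sum_const, Finset.card_erase_of_mem (Finset.mem_univ _),
        Finset.card_univ, ← Nat.card_eq_fintype_card, hP, nsmul_eq_mul]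
      have : ((p - 1 : ℕ) : ℝ) = p - 1 := by
        have : 1 ≤ p := by omega
        push_cast [this]; ring
      rw [this]
    have hlow : ∀ ζ : IrrCharacter G, (charDegree (ζ : G → ℂ) : ℝ) * (p - charDegree (ζ : G → ℂ)) ≤
        ∑ x ∈ Finset.univ.erase (1 : (P : Subgroup G)), ‖(ζ : G → ℂ) x‖ ^ 2 := fun ζ =>
      lower hp.out (P : Subgroup G) hP ζ.2 (hdeg ζ)
    have hsub : insert ζ (insert tr (insert χ Y.toFinset)) ⊆ (Finset.univ : Finset (IrrCharacter G)) :=
      Finset.subset_univ _
    have hle := Finset.sum_le_sum_of_subset_of_nonneg (f := fun ζ : IrrCharacter G =>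
      ∑ x ∈ Finset.univ.erase (1 : (P : Subgroup G)), ‖(ζ : G → ℂ) x‖ ^ 2) hsub
      (fun _ _ _ => Finset.sum_nonneg fun _ _ => by positivity)
    have hd := Set.disjoint_left.mp hdisj
    have n1 : χ ∉ Y.toFinset := by rw [Set.mem_toFinset]; exact hd hχX
    have n2 : tr ∉ insert χ Y.toFinset := by
      rw [Finset.mem_insert, Set.mem_toFinset]
      rintro (h | h)
      · exact hχt h.symm
      · exact hd htX h
    have n3 : ζ ∉ insert tr (insert χ Y.toFinset) := by
      rw [Finset.mem_insert, Finset.mem_insert, Set.mem_toFinset]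
      rintro (h | h | h)
      · exact hζ (Or.inl (h ▸ htX))
      · exact hζ (Or.inl (h ▸ hχX))
      · exact hζ (Or.inr h)
    rw [Finset.sum_insert n3, Finset.sum_insert n2, Finset.sum_insert n1, htot] at hle
    have l1 := hlow ζ
    have l2 := hlow tr
    have l3 := hlow χ
    have l4 : ∑ θ' ∈ Y.toFinset, (2 * ((p : ℝ) - 2)) ≤ ∑ θ' ∈ Y.toFinset,
        ∑ x ∈ Finset.univ.erase (1 : (P : Subgroup G)), ‖(θ' : G → ℂ) x‖ ^ 2 := by
      apply Finset.sum_le_sum
      intro θ' hθ'
      rw [Set.mem_toFinset] at hθ'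
      refine le_trans (le_of_eq ?_) (hlow θ')
      have : (charDegree (θ' : G → ℂ) : ℝ) + 2 = p := by exact_mod_cast hYdeg θ' hθ'
      have h2 : (charDegree (θ' : G → ℂ) : ℝ) = p - 2 := by linarith
      rw [h2]; ring
    rw [Finset.sum_const, hYs, nsmul_eq_mul] at l4
    rw [htrd] at l2
    have e3 : (charDegree (χ : G → ℂ) : ℝ) = p - 1 := by
      have : (charDegree (χ : G → ℂ) : ℝ) + 1 = p := by exact_mod_cast hχd.1
      linarith
    rw [e3] at l3
    have e4 : (p : ℝ) = 2 * s + 1 := by exact_mod_cast hs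
    have m1 : (1 : ℝ) ≤ charDegree (ζ : G → ℂ) := by exact_mod_cast hpos ζ
    have m2 : (charDegree (ζ : G → ℂ) : ℝ) + 1 ≤ p := by exact_mod_cast hb ζ
    have m3 : (0 : ℝ) < (charDegree (ζ : G → ℂ) : ℝ) * (p - charDegree (ζ : G → ℂ)) := by
      apply mul_pos <;> linarith
    push_cast at l2
    nlinarith
  -- the value of `χ` at `p`-regular elements
  obtain ⟨g, hg1, hg⟩ : ∃ g : G, g ≠ 1 ∧ ¬ p ∣ orderOf g := by
    have h1 : (P : Subgroup G).index ≠ 1 := by
      intro h
      rw [Subgroup.index_eq_one] at h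
      apply hna
      intro a b
      exact hPcomm a (by rw [h]; trivial) b (by rw [h]; trivial)
    obtain ⟨r, hr, hrd⟩ := Nat.exists_prime_and_dvd h1
    have hFr := Fact.mk hr
    obtain ⟨g, hg⟩ := exists_prime_orderOf_dvd_card' (G := G) r (hrd.trans (Subgroup.index_dvd_card _))
    refine ⟨g, ?_, ?_⟩
    · rintro rfl
      rw [orderOf_one] at hg
      exact hr.one_lt.ne hg
    · rw [hg, Nat.prime_dvd_prime_iff_eq hp.out hr]
      rintro rfl
      exact P.not_dvd_index hrd
  have hYval : ∀ θ' ∈ Y, (θ' : G → ℂ) g = (χ : G → ℂ) g - 1 := by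
    intro θ' hθ'
    have h1 := hYrel θ' hθ' g hg
    rw [finsum_mem_eq_toFinset_sum] at h1
    have h2 : X.toFinset = {tr, χ} := by
      ext ζ
      rw [Set.mem_toFinset, Finset.mem_insert, Finset.mem_singleton]
      exact ⟨hXall ζ, by rintro (rfl | rfl); exacts [htX, hχX]⟩
    rw [h2, Finset.sum_pair (Ne.symm hχt), hεtr, hχd.2, htr, hε1] at h1
    push_cast at h1
    linear_combination -h1
  have horth := sum_one_mul g
  rw [if_neg hg1] at horth
  have huniv : (Finset.univ : Finset (IrrCharacter G)) = X.toFinset ∪ Y.toFinset := by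
    ext ζ
    rw [Finset.mem_union, Set.mem_toFinset, Set.mem_toFinset]
    exact ⟨fun _ => hall ζ, fun _ => Finset.mem_univ _⟩
  have h2X : X.toFinset = {tr, χ} := by
    ext ζ
    rw [Set.mem_toFinset, Finset.mem_insert, Finset.mem_singleton]
    exact ⟨hXall ζ, by rintro (rfl | rfl); exacts [htX, hχX]⟩
  have hd1 : (charDegree (χ : G → ℂ) : ℂ) = 2 * s := by
    have : charDegree (χ : G → ℂ) = 2 * s := by omega
    rw [this]; push_cast; ring
  rw [huniv, Finset.sum_union (Set.disjoint_toFinset.mpr hdisj), h2X, Finset.sum_pair (Ne.symm hχt),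
    Finset.sum_congr rfl (g := fun _ => (2 * (s : ℂ) - 1) * ((χ : G → ℂ) g - 1)) (fun θ' hθ' => by
      rw [Set.mem_toFinset] at hθ'
      rw [hYval θ' hθ', hdeg]
      congr 1
      have h3 := hYdeg θ' hθ'
      have h4 : charDegree (θ' : G → ℂ) + 1 = 2 * s := by omega
      have h5 : (charDegree (θ' : G → ℂ) : ℂ) + 1 = 2 * s := by exact_mod_cast h4
      linear_combination h5), Finset.sum_const, hYs, hdeg χ, hd1, htr, nsmul_eq_mul] at horth
  have hs2 : 2 ≤ s := by omega
  have hs0 : (s : ℂ) ≠ 0 := by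
    have : s ≠ 0 := by omega
    exact_mod_cast this
  have hs1 : (2 * s + 1 : ℂ) ≠ 0 := by
    have : 2 * s + 1 ≠ 0 := by omega
    exact_mod_cast this
  have hval : (χ : G → ℂ) g = ((s - 1 : ℕ) : ℂ) / (s : ℕ) := by
    rw [eq_div_iff hs0]
    have h1 : 1 ≤ s := by omega
    apply mul_left_cancel₀ hs1
    push_cast [h1]
    linear_combination horth
  have hint := IsChar.isIntegral (IsIrr.isCharacter χ.2) g
  rw [hval] at hint
  have hdv := dvd_of_isIntegral_div (by omega) hint
  have := Nat.le_of_dvd (by omega) hdv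
  omega

section Main

universe u

/-- the degree bound passes to subgroups -/
theorem bound_sub {G : Type u} [Group G] [Finite G] {p : ℕ}
    (hb : ∀ χ : G → ℂ, IsIrrCharacter G χ → charDegree χ < p) (H : Subgroup G) :
    ∀ θ : H → ℂ, IsIrrCharacter H θ → charDegree θ < p := by
  classical
  have iH := Fintype.ofFinite H
  have iG := Fintype.ofFinite G
  intro θ hθ
  obtain ⟨χ, hχ, hne⟩ := exists_constituent_ind (G := G) hθ
  have h1 := (constituent_ind_iff (IsIrr.isCharacter hχ)).mp hne
  refine lt_of_le_of_lt ?_ (hb χ hχ)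
  exact IsChar.degree_le' (IsChar.res (IsIrr.isCharacter hχ) H) hθ h1 (charDegree_cast hχ) (charDegree_cast hθ)

/-- the degree bound passes to quotients -/
theorem bound_quot {G : Type u} [Group G] [Finite G] {p : ℕ}
    (hb : ∀ χ : G → ℂ, IsIrrCharacter G χ → charDegree χ < p) (N : Subgroup G) [N.Normal] :
    ∀ θ : G ⧸ N → ℂ, IsIrrCharacter (G ⧸ N) θ → charDegree θ < p :=
  fun θ hθ => hb _ (IsIrr.inflate hθ)

theorem le_sylow_of_normal {G : Type u} [Group G] {p : ℕ} {Q : Subgroup G} (hQ : IsPGroup p Q) [Q.Normal] (P : Sylow p G) :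
    Q ≤ P := by
  have h1 : IsPGroup p (Q ⊔ P : Subgroup G) := IsPGroup.to_sup_of_normal_left hQ P.isPGroup'
  have h2 := P.is_maximal' h1 le_sup_right
  rw [← h2]; exact le_sup_left

theorem sylow_of_pnormal {G : Type u} [Group G] [Finite G] {p : ℕ} [hp : Fact p.Prime] {Q : Subgroup G} (hQ : IsPGroup p Q)
    [hQn : Q.Normal] (h : ∀ R : Sylow p (G ⧸ Q), (R : Subgroup (G ⧸ Q)).Normal) (P : Sylow p G) :
    (P : Subgroup G).Normal := by
  have h1 := h (P.mapSurjective (QuotientGroup.mk'_surjective Q))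
  have h2 : (P : Subgroup G) = ((P.mapSurjective (QuotientGroup.mk'_surjective Q) : Sylow p (G ⧸ Q)) :
      Subgroup (G ⧸ Q)).comap (QuotientGroup.mk' Q) := by
    rw [Sylow.coe_mapSurjective, Subgroup.comap_map_eq, QuotientGroup.ker_mk', sup_eq_left.mpr (le_sylow_of_normal hQ P)]
  rw [h2]
  exact h1.comap _

/-- the simple case -/
theorem simple_case {G : Type u} [Group G] [Finite G] [IsSimpleGroup G] {p : ℕ} [hp : Fact p.Prime]
    (hb : ∀ χ : G → ℂ, IsIrrCharacter G χ → charDegree χ < p)
    (ih : ∀ K : Subgroup G, K ≠ ⊤ → ∀ Q : Sylow p K, (Q : Subgroup K).Normal) (P : Sylow p G) :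
    (P : Subgroup G).Normal := by
  classical
  have iG := Fintype.ofFinite G
  by_contra hPn
  have hna : ¬ ∀ a b : G, a * b = b * a := by
    intro h
    apply hPn
    constructor
    intro n hn g
    rw [h g n, mul_inv_cancel_right]; exact hn
  have hpG : p ∣ Nat.card G := by
    by_contra h
    apply hPn
    have h1 : (P : Subgroup G) = ⊥ := by
      rw [← Subgroup.card_eq_one, P.card_eq_multiplicity, Nat.factorization_eq_zero_of_not_dvd h, pow_zero]
    rw [h1]; infer_instance
  obtain ⟨χ, hχ, hχ1⟩ := GalP.exists_nonlinear hna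
  have hd := charDegree_cast hχ
  have hd1 : charDegree χ ≠ 1 := by
    intro h; apply hχ1; rw [hd, h]; simp
  have hpos := H10.Char.charDegree_pos hχ
  have hp3 : 3 < p := by
    have h1 := hb χ hχ
    have h2 : charDegree χ ≠ 2 := by
      intro h
      exact no_two hna hχ (by rw [hd, h]; simp)
    omega
  by_cases hp2 : p ^ 2 ∣ Nat.card G
  swap
  · apply prime_case hna hp3 (fun χ => hb χ χ.2) P
    have h1 := P.card_eq_multiplicity
    have h2 : (Nat.card G).factorization p = 1 := by
      have h3 : 1 ≤ (Nat.card G).factorization p :=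
        (hp.out.dvd_iff_one_le_factorization Nat.card_pos.ne').mp hpG
      have h4 : ¬ 2 ≤ (Nat.card G).factorization p := by
        intro h
        exact hp2 ((hp.out.pow_dvd_iff_le_factorization Nat.card_pos.ne').mpr h)
      omega
    rw [h1, h2, pow_one]
  by_cases hex : ∃ θ : G → ℂ, IsIrrCharacter G θ ∧ charDegree θ ≠ 1 ∧ charDegree θ + 1 < p
  · obtain ⟨θ, hθ, hθ1, hθp⟩ := hex
    have hdθ := charDegree_cast hθ
    obtain ⟨n, ρ, hρ, hc⟩ := id hθ
    have hn : charDegree θ = n := by
      have h1 : θ 1 = n := by rw [← hc, Representation.char_one]; simp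
      rw [hdθ] at h1
      exact_mod_cast h1
    have hinj : Function.Injective ρ := Burnside.injective_of_simple ρ hρ (by
      rw [hc]
      intro h
      apply hθ1
      have h1 := congrFun h 1
      rw [hdθ] at h1
      exact_mod_cast h1)
    apply hPn
    refine Cfsg.Agent.S0899.result n ρ hinj p (Or.inr ⟨by omega, fun K hK => ih K ?_⟩) P
    rintro rfl
    rw [Subgroup.card_top] at hK
    exact hK hp2
  · push Not at hex
    have hall : ∀ θ : G → ℂ, IsIrrCharacter G θ → charDegree θ ≠ 1 → charDegree θ = p - 1 := by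
      intro θ hθ h1
      have h2 := hex θ hθ h1
      have h3 := hb θ hθ
      omega
    obtain ⟨r, hr, hrd⟩ := Nat.exists_prime_and_dvd (show p - 1 ≠ 1 by omega)
    obtain ⟨N, hN, hN1, k, hk⟩ := Cfsg.Agent.S4456.result (G := G) r hr (fun θ h1 => by
      rw [hall θ θ.2 h1]; exact hrd)
    rcases hN.eq_bot_or_eq_top with h | h
    · rw [h, Subgroup.index_bot] at hk
      rw [hk] at hpG
      have h1 := (Nat.prime_dvd_prime_iff_eq hp.out hr).mp (hp.out.dvd_of_dvd_pow hpG)
      subst h1
      have := Nat.le_of_dvd (by omega) hrd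
      omega
    · rw [h, Subgroup.card_top] at hN1
      have h1 : r ∣ Nat.card G := by
        have h2 : charDegree χ ∣ Nat.card G := H1.Deg.deg_dvd_card hχ
        rw [hall χ hχ hd1] at h2
        exact hrd.trans h2
      have h2 := hr.coprime_iff_not_dvd.mp hN1.symm
      exact h2 h1

theorem sylow_normal (p : ℕ) [hp : Fact p.Prime] (n : ℕ) : ∀ {G : Type u} [Group G] [Finite G], Nat.card G = n →
    (∀ χ : G → ℂ, IsIrrCharacter G χ → charDegree χ < p) → ∀ P : Sylow p G, (P : Subgroup G).Normal := by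
  induction n using Nat.strong_induction_on with
  | _ n ih =>
  intro G _ _ hcard hb P
  classical
  have hsub : ∀ K : Subgroup G, K ≠ ⊤ → ∀ Q : Sylow p K, (Q : Subgroup K).Normal := by
    intro K hK
    refine ih (Nat.card K) ?_ rfl (bound_sub hb K)
    rw [← hcard]
    exact lt_of_le_of_ne (Subgroup.card_le_card_group K) fun h => hK (Subgroup.eq_top_of_card_eq K h)
  by_cases hsimple : ∃ N : Subgroup G, N.Normal ∧ N ≠ ⊥ ∧ N ≠ ⊤
  · obtain ⟨N, hN, hN1, hN2⟩ := hsimple
    have hquot : ∀ M : Subgroup G, ∀ hM : M.Normal, M ≠ ⊥ → ∀ Q : Sylow p (G ⧸ M), (Q : Subgroup (G ⧸ M)).Normal := by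
      intro M hM hM1
      refine ih (Nat.card (G ⧸ M)) ?_ rfl (bound_quot hb M)
      rw [← hcard, ← Subgroup.index_eq_card, ← Subgroup.index_mul_card M]
      have h1 : 1 < Nat.card M := (Subgroup.one_lt_card_iff_ne_bot M).mpr hM1
      have h2 : 0 < M.index := Nat.pos_of_ne_zero Subgroup.FiniteIndex.index_ne_zero
      nlinarith
    by_cases hpN : p ∣ Nat.card N
    · -- a normal `p`-subgroup
      obtain ⟨Q⟩ : Nonempty (Sylow p N) := inferInstance
      have hQn := hsub N hN2 Q
      have hQc : (Q : Subgroup N).Characteristic := Q.characteristic_of_normal hQn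
      have hQ' : ((Q : Subgroup N).map N.subtype).Normal := ConjAct.normal_of_characteristic_of_normal
      have hQp : IsPGroup p ((Q : Subgroup N).map N.subtype) := Q.isPGroup'.map _
      refine sylow_of_pnormal hQp (hquot _ hQ' ?_) P
      intro h
      rw [Subgroup.map_eq_bot_iff_of_injective _ N.subtype_injective] at h
      have h1 := Q.card_eq_multiplicity
      rw [h, Subgroup.card_bot] at h1
      have h3 : 1 ≤ (Nat.card N).factorization p :=
        (hp.out.dvd_iff_one_le_factorization Nat.card_pos.ne').mp hpN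
      have := Nat.one_lt_pow (n := (Nat.card N).factorization p) (by omega) hp.out.one_lt
      omega
    · -- `N` is a `p'`-group
      have h1 := hquot N hN hN1 (P.mapSurjective (QuotientGroup.mk'_surjective N))
      have h2 : ((P : Subgroup G) ⊔ N).Normal := by
        have h3 := h1.comap (QuotientGroup.mk' N)
        rwa [Sylow.coe_mapSurjective, Subgroup.comap_map_eq, QuotientGroup.ker_mk'] at h3
      by_cases htop : (P : Subgroup G) ⊔ N = ⊤
      · have hq : IsPGroup p (G ⧸ N) := by
          have h3 : IsPGroup p ((P : Subgroup G).map (QuotientGroup.mk' N)) := P.isPGroup'.map _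
          have h4 : (P : Subgroup G).map (QuotientGroup.mk' N) = ⊤ := by
            have h5 := congrArg (Subgroup.map (QuotientGroup.mk' N)) htop
            rw [Subgroup.map_sup, QuotientGroup.map_mk'_self, sup_bot_eq,
              Subgroup.map_top_of_surjective _ (QuotientGroup.mk'_surjective N)] at h5
            exact h5
          rw [h4] at h3
          exact h3.of_equiv Subgroup.topEquiv
        have hsolv : IsPSolvable p G := H22.PSolv.isPSolvable_of_normal_quotient N
          (H22.PSolv.isPSolvable_of_fac (Or.inr ((hp.out.coprime_iff_not_dvd.mpr hpN).symm)))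
          (H22.PSolv.isPSolvable_of_fac (Or.inl (IsPGroup.iff_card.mp hq)))
        refine ((Cfsg.Agent.S4713.result p hsolv P).mpr ?_).1
        intro χ hd
        exact absurd (Nat.le_of_dvd (H10.Char.charDegree_pos χ.2) hd) (not_le.mpr (hb χ χ.2))
      · -- `P N` is proper and normal
        have hPle : (P : Subgroup G) ≤ (P : Subgroup G) ⊔ N := le_sup_left
        have h3 := hsub _ htop (P.subtype hPle)
        have h4 : ((P.subtype hPle : Sylow p ((P : Subgroup G) ⊔ N : Subgroup G)) :
          Subgroup ((P : Subgroup G) ⊔ N : Subgroup G)).Characteristic := Sylow.characteristic_of_normal _ h3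
        have h5 := ConjAct.normal_of_characteristic_of_normal (H := (P : Subgroup G) ⊔ N)
          (K := ((P.subtype hPle : Sylow p ((P : Subgroup G) ⊔ N : Subgroup G)) :
            Subgroup ((P : Subgroup G) ⊔ N : Subgroup G)))
        rwa [Sylow.coe_subtype, Subgroup.subgroupOf_map_subtype, inf_eq_left.mpr hPle] at h5
  · push Not at hsimple
    by_cases hnt : Nontrivial G
    · have hS : IsSimpleGroup G := ⟨fun N hN => by
        by_cases h : N = ⊥
        · exact Or.inl h
        · exact Or.inr (hsimple N hN h)⟩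
      exact simple_case hb hsub P
    · rw [not_nontrivial_iff_subsingleton] at hnt
      constructor
      intro n hn g
      rw [Subsingleton.elim (g * n * g⁻¹) n]; exact hn

/-- the conclusion -/
theorem main {G : Type u} [Group G] [Finite G] (p : ℕ) (hp : p.Prime)
    (hb : ∀ χ : G → ℂ, IsIrrCharacter G χ → charDegree χ < p) :
    ∃ P : Subgroup G, P.Normal ∧ (∀ x ∈ P, ∀ y ∈ P, x * y = y * x) ∧ IsPGroup p P ∧ ¬ p ∣ P.index := by
  have hpF := Fact.mk hp
  have iG := Fintype.ofFinite G
  obtain ⟨P⟩ : Nonempty (Sylow p G) := inferInstance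
  refine ⟨P, sylow_normal p (Nat.card G) rfl hb P, ?_, P.isPGroup', P.not_dvd_index⟩
  intro x hx y hy
  by_contra hne
  have h1 : x * y * x⁻¹ * y⁻¹ ≠ 1 := by
    intro h
    apply hne
    rw [mul_inv_eq_one, mul_inv_eq_iff_eq_mul] at h
    exact h
  obtain ⟨χ, hχ, hχ1⟩ := GalP.exists_irr_ne h1
  exact hχ1 (SmallDeg.sylow_small P (IsIrr.isCharacter hχ) (charDegree_cast hχ) (hb χ hχ) hx hy)

end Main

end Cfsg.Agent.H3.DegLt
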