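import Mathlib
import Cfsg.Prelude.Def_Characters
import Cfsg.Agent.H3_InvCount
import Cfsg.Agent.H3_InvSum
import Cfsg.Agent.H3_CharCalc
import Cfsg.Agent.H3_DefTwo
import Cfsg.Agent.H3_DegLt
import Cfsg.Agent.H1_Deg

/-!
# Characters of defect zero or of even degree
-/

set_option autoImplicit false

open scoped ComplexConjugate

namespace Cfsg.Agent.H3.EvenDef

open Cfsg Cfsg.Agent.H3.CharBasic Cfsg.Agent.H3.CharIrr Cfsg.Agent.H3.CharInt Cfsg.Agent.H3.CharCalc
  Cfsg.Agent.H3.CharComplete Cfsg.Agent.H3.CharInd Cfsg.Agent.H3.InvCount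

variable {G : Type*} [Group G] [Fintype G]

/-- no inverted `p`-elements: a character of defect zero -/
theorem caseA {p : ℕ} [hp : Fact p.Prime] (P : Sylow p G) {t : G} (ht : t * t = 1)
    (hct : ¬ p ∣ Nat.card (Subgroup.centralizer ({t} : Set G)))
    (hno : ∀ x ∈ P, x ≠ 1 → ∀ s : G, s * s = 1 → s * x * s⁻¹ ≠ x⁻¹) :
    ∃ χ : IrrCharacter G, (charDegree (χ : G → ℂ)).factorization p = (Nat.card G).factorization p := by
  classical
  by_contra hcon
  push Not at hcon
  have : Fintype (IrrCharacter G) := Fintype.ofFinite _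
  have : Fintype (P : Subgroup G) := Fintype.ofFinite _
  have hG0 : (Nat.card G : ℂ) ≠ 0 := Nat.cast_ne_zero.mpr Nat.card_pos.ne'
  have hdvd : ∀ χ : IrrCharacter G, charDegree (χ : G → ℂ) ∣ Nat.card G := fun χ => Cfsg.Agent.H1.Deg.deg_dvd_card χ.2
  have he : ∀ χ : IrrCharacter G, ∃ e : ℕ, Nat.card G = charDegree (χ : G → ℂ) * (p * e) := by
    intro χ
    obtain ⟨c, hc⟩ := hdvd χ
    have hc0 : c ≠ 0 := by
      rintro rfl
      rw [mul_zero] at hc
      exact Nat.card_pos.ne' hc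
    have hd0 : charDegree (χ : G → ℂ) ≠ 0 := by
      intro h
      rw [h, zero_mul] at hc
      exact Nat.card_pos.ne' hc
    have h1 : p ∣ c := by
      by_contra h
      apply hcon χ
      rw [hc, Nat.factorization_mul hd0 hc0, Finsupp.add_apply, Nat.factorization_eq_zero_of_not_dvd h, add_zero]
    obtain ⟨e, he⟩ := h1
    exact ⟨e, by rw [hc, he]⟩
  choose e he using he
  choose a b hab using fun χ : IrrCharacter G => InvSum.char_invol (IsIrr.isCharacter χ.2) ht
  choose n hn using fun χ : IrrCharacter G => ci_char_nat (IsChar.res (IsIrr.isCharacter χ.2) (P : Subgroup G)) (IsIrr.isCharacter (isIrr_one (G := (P : Subgroup G))))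
  -- sum of the class constants over `P`
  have h1 : ∀ x : (P : Subgroup G), ((Finset.univ.filter (fun q : G × G => q.1 * t * q.1⁻¹ * (q.2 * t * q.2⁻¹) = x)).card : ℂ) =
      (Nat.card G : ℂ) * ∑ χ : IrrCharacter G, (χ : G → ℂ) t * (χ : G → ℂ) t * conj ((χ : G → ℂ) x) / (χ : G → ℂ) 1 := fun x => class_mult t t x
  have h2 : ∀ x : (P : Subgroup G), x ≠ 1 → (Finset.univ.filter (fun q : G × G => q.1 * t * q.1⁻¹ * (q.2 * t * q.2⁻¹) = x)).card = 0 := by
    intro x hx
    rw [Finset.card_eq_zero, Finset.filter_eq_empty_iff]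
    rintro ⟨u, v⟩ - h
    dsimp only at h
    have hs : ∀ w : G, w * t * w⁻¹ * (w * t * w⁻¹) = 1 := by
      intro w
      calc w * t * w⁻¹ * (w * t * w⁻¹) = w * (t * t) * w⁻¹ := by group
        _ = 1 := by rw [ht]; group
    apply hno x x.2 (fun h => hx (Subtype.ext h)) (u * t * u⁻¹) (hs u)
    rw [← h]
    have h3 : (u * t * u⁻¹)⁻¹ = u * t * u⁻¹ := inv_eq_of_mul_eq_one_left (hs u)
    have h4 : (v * t * v⁻¹)⁻¹ = v * t * v⁻¹ := inv_eq_of_mul_eq_one_left (hs v)
    obtain ⟨U, hU⟩ : ∃ U, U = u * t * u⁻¹ := ⟨_, rfl⟩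
    obtain ⟨V, hV⟩ : ∃ V, V = v * t * v⁻¹ := ⟨_, rfl⟩
    have hsU := hs u
    rw [← hU] at h3 hsU ⊢
    rw [← hV] at h4 ⊢
    rw [mul_inv_rev, h3, h4, ← mul_assoc, hsU, one_mul]
  have h3 : (Finset.univ.filter (fun q : G × G => q.1 * t * q.1⁻¹ * (q.2 * t * q.2⁻¹) = (1 : (P : Subgroup G)))).card =
      Nat.card G * Nat.card (Subgroup.centralizer ({t} : Set G)) := by
    rw [Nat.card_eq_fintype_card, Nat.card_eq_fintype_card, ← Finset.card_univ, ← Finset.card_univ, ← Finset.card_product]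
    symm
    refine Finset.card_bij (fun q _ => (q.1, q.1 * (q.2 : G))) ?_ ?_ ?_
    · rintro ⟨u, c⟩ -
      rw [Finset.mem_filter]
      refine ⟨Finset.mem_univ _, ?_⟩
      have hc := Subgroup.mem_centralizer_singleton_iff.mp c.2
      have h4 : (u * (c : G)) * t * (u * (c : G))⁻¹ = u * t * u⁻¹ := by
        calc (u * (c : G)) * t * (u * (c : G))⁻¹ = u * (c * t) * (c : G)⁻¹ * u⁻¹ := by group
          _ = u * (t * c) * (c : G)⁻¹ * u⁻¹ := by rw [hc]
          _ = u * t * u⁻¹ := by group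
      show u * t * u⁻¹ * ((u * (c : G)) * t * (u * (c : G))⁻¹) = ((1 : (P : Subgroup G)) : G)
      rw [h4, Subgroup.coe_one]
      calc u * t * u⁻¹ * (u * t * u⁻¹) = u * (t * t) * u⁻¹ := by group
        _ = 1 := by rw [ht]; group
    · rintro ⟨u, c⟩ - ⟨u', c'⟩ - h
      have h4 := (Prod.mk.inj h).1
      have h5 := (Prod.mk.inj h).2
      dsimp only at h4 h5
      subst h4
      exact Prod.ext rfl (Subtype.ext (mul_left_cancel h5))
    · rintro ⟨u, v⟩ h
      rw [Finset.mem_filter] at h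
      have h4 : u * t * u⁻¹ * (v * t * v⁻¹) = 1 := h.2
      have h5 : v * t * v⁻¹ = u * t * u⁻¹ := by
        have h6 : (u * t * u⁻¹)⁻¹ = u * t * u⁻¹ := inv_eq_of_mul_eq_one_left (by
          calc u * t * u⁻¹ * (u * t * u⁻¹) = u * (t * t) * u⁻¹ := by group
            _ = 1 := by rw [ht]; group)
        have h7 := eq_inv_of_mul_eq_one_right h4
        rw [h7, h6]
      refine ⟨(u, ⟨u⁻¹ * v, ?_⟩), Finset.mem_product.mpr ⟨Finset.mem_univ _, Finset.mem_univ _⟩, ?_⟩
      · rw [Subgroup.mem_centralizer_singleton_iff]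
        calc u⁻¹ * v * t = u⁻¹ * (v * t * v⁻¹) * v := by group
          _ = u⁻¹ * (u * t * u⁻¹) * v := by rw [h5]
          _ = t * (u⁻¹ * v) := by group
      · show (u, u * (u⁻¹ * v)) = (u, v)
        rw [mul_inv_cancel_left]
  have h4 : ((Nat.card G * Nat.card (Subgroup.centralizer ({t} : Set G)) : ℕ) : ℂ) =
      ∑ x : (P : Subgroup G), ((Finset.univ.filter (fun q : G × G => q.1 * t * q.1⁻¹ * (q.2 * t * q.2⁻¹) = x)).card : ℂ) := by
    rw [Finset.sum_eq_single (1 : (P : Subgroup G)), h3]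
    · intro x _ hx
      rw [h2 x hx, Nat.cast_zero]
    · intro h; exact absurd (Finset.mem_univ _) h
  have h5 : ∀ χ : IrrCharacter G, ∑ x : (P : Subgroup G), conj ((χ : G → ℂ) x) = (Nat.card P : ℂ) * n χ := by
    intro χ
    have h6 := hn χ
    rw [← ci_conj_symm] at h6
    have h7 := congrArg conj h6
    rw [Complex.conj_conj, map_natCast, classInner] at h7
    have hP0 : (Nat.card P : ℂ) ≠ 0 := Nat.cast_ne_zero.mpr Nat.card_pos.ne'
    rw [← h7]
    have h8 : ∑ x : (P : Subgroup G), (1 : ℂ) * conj ((χ : G → ℂ) x) = ∑ x : (P : Subgroup G), conj ((χ : G → ℂ) x) := by simp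
    rw [h8, ← mul_assoc, mul_inv_cancel₀ hP0, one_mul]
  have h6 : ((Nat.card G * Nat.card (Subgroup.centralizer ({t} : Set G)) : ℕ) : ℂ) =
      (Nat.card P : ℂ) * ∑ χ : IrrCharacter G, ((a χ : ℂ) ^ 2 * n χ * (p * e χ : ℂ)) := by
    rw [h4, Finset.sum_congr rfl (fun x _ => h1 x), ← Finset.mul_sum, Finset.sum_comm, Finset.mul_sum, Finset.mul_sum]
    refine Finset.sum_congr rfl (fun χ _ => ?_)
    rw [(hab χ).1]
    have h7 : ∑ x : (P : Subgroup G), (a χ : ℂ) * (a χ : ℂ) * conj ((χ : G → ℂ) x) / (χ : G → ℂ) 1 =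
        (a χ : ℂ) ^ 2 / (χ : G → ℂ) 1 * ((Nat.card P : ℂ) * n χ) := by
      rw [← h5 χ, Finset.mul_sum]
      refine Finset.sum_congr rfl (fun x _ => ?_)
      ring
    rw [h7]
    have h8 : (χ : G → ℂ) 1 ≠ 0 := IsIrr.one_ne_zero χ.2
    have h9 : (Nat.card G : ℂ) = (χ : G → ℂ) 1 * (p * e χ) := by
      rw [DegLt.charDegree_cast χ.2]
      exact_mod_cast he χ
    rw [h9]
    field_simp
  have h7 : ((Nat.card G * Nat.card (Subgroup.centralizer ({t} : Set G)) : ℕ) : ℤ) =
      (Nat.card P : ℤ) * ∑ χ : IrrCharacter G, ((a χ) ^ 2 * n χ * (p * e χ : ℤ)) := by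
    exact_mod_cast h6
  have h8 := Subgroup.card_mul_index (P : Subgroup G)
  rw [← h8] at h7
  have hP0 : (Nat.card P : ℤ) ≠ 0 := by exact_mod_cast Nat.card_pos.ne'
  have h9 : (((P : Subgroup G).index * Nat.card (Subgroup.centralizer ({t} : Set G)) : ℕ) : ℤ) =
      ∑ χ : IrrCharacter G, ((a χ) ^ 2 * n χ * (p * e χ : ℤ)) := by
    apply mul_left_cancel₀ hP0
    rw [← h7]
    push_cast
    ring
  have h10 : (p : ℤ) ∣ (((P : Subgroup G).index * Nat.card (Subgroup.centralizer ({t} : Set G)) : ℕ) : ℤ) := by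
    rw [h9]
    refine Finset.dvd_sum (fun χ _ => ?_)
    exact ⟨a χ ^ 2 * n χ * e χ, by ring⟩
  have h11 : p ∣ (P : Subgroup G).index * Nat.card (Subgroup.centralizer ({t} : Set G)) := by exact_mod_cast h10
  rcases (Nat.Prime.dvd_mul hp.out).mp h11 with h12 | h12
  · exact P.not_dvd_index h12
  · exact hct h12

/-- a real element with centralizer of odd order: a character of even degree -/
theorem caseB {x s : G} (hx : x ≠ 1) (hs : s * x * s⁻¹ = x⁻¹) (hodd : Odd (Nat.card (Subgroup.centralizer ({x} : Set G)))) :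
    ∃ χ : IrrCharacter G, Even (charDegree (χ : G → ℂ)) := by
  classical
  by_contra hcon
  push Not at hcon
  have : Fintype (IrrCharacter G) := Fintype.ofFinite _
  have hreal : ∀ χ : IrrCharacter G, conj ((χ : G → ℂ) x) = (χ : G → ℂ) x := by
    intro χ
    rw [← IsChar.inv_eq_conj (IsIrr.isCharacter χ.2), ← hs, IsIrr.isClass χ.2]
  have h1 := count_sq (G := G) x
  have h2 : (Finset.univ.filter (fun y : G => y * y = x)).card = 1 := by
    obtain ⟨y, hy, hyu⟩ := DefTwo.unique_sqrt hodd (⟨x, by rw [Subgroup.mem_centralizer_singleton_iff]⟩ : Subgroup.centralizer ({x} : Set G))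
    rw [Finset.card_eq_one]
    refine ⟨(y : G), ?_⟩
    ext z
    rw [Finset.mem_filter, Finset.mem_singleton]
    constructor
    · rintro ⟨-, hz⟩
      have hzC : z ∈ Subgroup.centralizer ({x} : Set G) := by
        rw [Subgroup.mem_centralizer_singleton_iff, ← hz]; group
      have := hyu ⟨z, hzC⟩ (Subtype.ext hz)
      exact congrArg Subtype.val this
    · rintro rfl
      exact ⟨Finset.mem_univ _, congrArg Subtype.val hy⟩
  rw [h2, Nat.cast_one] at h1
  have h3 : ∑ χ : IrrCharacter G, (χ : G → ℂ) 1 * (χ : G → ℂ) x = 0 := by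
    have := sum_one_mul (G := G) x
    rw [if_neg hx] at this
    exact this
  -- the integral elements
  have hint : ∀ χ : IrrCharacter G, ∃ w : AlgInt, (w : ℂ) = (χ : G → ℂ) x := fun χ =>
    ⟨⟨_, IsChar.isIntegral (IsIrr.isCharacter χ.2) x⟩, rfl⟩
  choose w hw using hint
  have hnu : ∀ χ : IrrCharacter G, ∃ k : ℤ, (((χ : G → ℂ) 1 - nu (χ : G → ℂ)) = k) ∧ ((∀ g, ((χ : G → ℂ) g).im = 0) → (2 : ℤ) ∣ k) ∧
      ((¬ ∀ g, ((χ : G → ℂ) g).im = 0) → k = charDegree (χ : G → ℂ)) := by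
    intro χ
    have h4 := hcon χ
    rw [Nat.not_even_iff_odd] at h4
    obtain ⟨j, hj⟩ := h4
    have h5 := DegLt.charDegree_cast χ.2
    rcases nu_cases χ.2 with ⟨h6, h7⟩ | ⟨h7, h6 | h6⟩
    · exact ⟨charDegree (χ : G → ℂ), by rw [h6, h5, sub_zero]; simp, fun h => absurd h h7, fun _ => rfl⟩
    · refine ⟨2 * j, by rw [h6, h5, hj]; push_cast; ring, fun _ => ⟨j, rfl⟩, fun h => absurd h7 h⟩
    · refine ⟨2 * (j + 1), by rw [h6, h5, hj]; push_cast; ring, fun _ => ⟨j + 1, rfl⟩, fun h => absurd h7 h⟩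
  choose k hk1 hk2 hk3 using hnu
  have h4 : ∑ χ : IrrCharacter G, (k χ : ℂ) * (χ : G → ℂ) x = -1 := by
    have h5 : ∑ χ : IrrCharacter G, (k χ : ℂ) * (χ : G → ℂ) x = ∑ χ : IrrCharacter G, (χ : G → ℂ) 1 * (χ : G → ℂ) x -
        ∑ χ : IrrCharacter G, nu (χ : G → ℂ) * (χ : G → ℂ) x := by
      rw [← Finset.sum_sub_distrib]
      refine Finset.sum_congr rfl (fun χ _ => ?_)
      rw [← hk1 χ]; ring
    rw [h5, h3, ← h1]; ring
  let J : Ideal AlgInt := Ideal.span {2}
  let q := Ideal.Quotient.mk J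
  have hq2 : q 2 = 0 := Ideal.Quotient.eq_zero_iff_mem.mpr (Ideal.subset_span rfl)
  let cj : IrrCharacter G → IrrCharacter G := fun χ => ⟨fun g => conj ((χ : G → ℂ) g), IsIrr.conj χ.2⟩
  have hcj : ∀ χ g, (cj χ : G → ℂ) g = conj ((χ : G → ℂ) g) := fun χ g => rfl
  have hsum : ∑ χ : IrrCharacter G, q ((k χ : AlgInt) * w χ) = 0 := by
    refine Finset.sum_involution (fun χ _ => cj χ) ?_ ?_ (fun _ _ => Finset.mem_univ _) ?_
    · intro χ _
      have hw' : w (cj χ) = w χ := by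
        apply Subtype.ext
        rw [hw, hw, hcj, hreal]
      by_cases hr : ∀ g, ((χ : G → ℂ) g).im = 0
      · have h5 : cj χ = χ := by
          apply Subtype.ext
          funext g
          rw [hcj, Complex.conj_eq_iff_im]
          exact hr g
        rw [h5, ← map_add, ← two_mul, map_mul, hq2, zero_mul]
      · have hr' : ¬ ∀ g, ((cj χ : G → ℂ) g).im = 0 := by
          intro h
          apply hr
          intro g
          have := h g
          rw [hcj, Complex.conj_im, neg_eq_zero] at this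
          exact this
        have hd : charDegree (cj χ : G → ℂ) = charDegree (χ : G → ℂ) := by
          have h6 := DegLt.charDegree_cast χ.2
          have h7 := DegLt.charDegree_cast (cj χ).2
          rw [hcj, h6, map_natCast] at h7
          exact_mod_cast h7.symm
        have hk' : k (cj χ) = k χ := by
          rw [hk3 χ hr, hk3 (cj χ) hr', hd]
        rw [hk', hw', ← map_add, ← two_mul, map_mul, hq2, zero_mul]
    · intro χ _ h5 h6
      apply h5
      have hr : ∀ g, ((χ : G → ℂ) g).im = 0 := by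
        intro g
        rw [← Complex.conj_eq_iff_im, ← hcj, h6]
      obtain ⟨j, hj⟩ := hk2 χ hr
      rw [hj]
      push_cast
      rw [map_mul, map_mul, hq2, zero_mul, zero_mul]
    · intro χ _
      apply Subtype.ext
      funext g
      rw [hcj, hcj, Complex.conj_conj]
  have h5 : ∑ χ : IrrCharacter G, (k χ : AlgInt) * w χ = -1 := by
    apply Subtype.ext
    push_cast
    rw [← h4]
    refine Finset.sum_congr rfl (fun χ _ => ?_)
    rw [hw]
  rw [← map_sum, h5, map_neg, map_one, neg_eq_zero] at hsum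
  have h6 : (1 : AlgInt) ∈ J := by
    rw [← Ideal.Quotient.eq_zero_iff_mem]
    exact (map_one q).trans hsum
  obtain ⟨z, hz⟩ := Ideal.mem_span_singleton'.mp h6
  have h7 : (z : ℂ) * 2 = 1 := by
    have := congrArg (fun u : AlgInt => (u : ℂ)) hz
    push_cast at this
    exact this
  have h8 : IsIntegral ℤ ((1 / 2 : ℚ) : ℂ) := by
    have h9 : ((1 / 2 : ℚ) : ℂ) = (z : ℂ) := by
      push_cast
      linear_combination -(1 / 2 : ℂ) * h7
    rw [h9]
    exact z.2
  obtain ⟨n, hn⟩ := exists_int_of_isIntegral h8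
  have h9 : (1 : ℚ) = 2 * n := by rw [← hn]; norm_num
  have h10 : (1 : ℤ) = 2 * n := by exact_mod_cast h9
  omega

theorem main {p : ℕ} [hp : Fact p.Prime] (hp2 : p ≠ 2) (hpG : p ∣ Nat.card G) (h2G : 2 ∣ Nat.card G)
    (hC : ∀ g : G, g ≠ 1 → (∃ k : ℕ, orderOf g = p ^ k) → Odd (Nat.card ↥(Subgroup.centralizer ({g} : Set G)))) :
    (∃ χ : IrrCharacter G, (charDegree (χ : G → ℂ)).factorization p = (Nat.card G).factorization p) ∨
      ∃ χ : IrrCharacter G, Even (charDegree (χ : G → ℂ)) := by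
  classical
  obtain ⟨P⟩ : Nonempty (Sylow p G) := inferInstance
  by_cases hex : ∃ x ∈ P, x ≠ 1 ∧ ∃ s : G, s * x * s⁻¹ = x⁻¹
  · obtain ⟨x, hx, hx1, s, hs⟩ := hex
    right
    refine caseB hx1 hs (hC x hx1 ?_)
    obtain ⟨k, hk⟩ := IsPGroup.iff_orderOf.mp P.2 ⟨x, hx⟩
    rw [Subgroup.orderOf_mk] at hk
    exact ⟨k, hk⟩
  · push Not at hex
    left
    have h2 : Fact (Nat.Prime 2) := ⟨Nat.prime_two⟩
    obtain ⟨t, ht⟩ := exists_prime_orderOf_dvd_card' 2 h2G
    have ht2 : t * t = 1 := by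
      have := pow_orderOf_eq_one t
      rw [ht, sq] at this
      exact this
    refine caseA P ht2 ?_ (fun x hx hx1 s _ => hex x hx hx1 s)
    intro hdvd
    obtain ⟨y, hy⟩ := exists_prime_orderOf_dvd_card' p hdvd
    have hy1 : (y : G) ≠ 1 := by
      intro h
      have h3 : y = 1 := Subtype.ext h
      rw [h3, orderOf_one] at hy
      exact hp.out.one_lt.ne hy
    have hyo : orderOf (y : G) = p := by rw [Subgroup.orderOf_coe, hy]
    have h3 := hC y hy1 ⟨1, by rw [pow_one, hyo]⟩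
    have h4 : t ∈ Subgroup.centralizer ({(y : G)} : Set G) := by
      rw [Subgroup.mem_centralizer_singleton_iff]
      exact (Subgroup.mem_centralizer_singleton_iff.mp y.2).symm
    have h5 : orderOf (⟨t, h4⟩ : Subgroup.centralizer ({(y : G)} : Set G)) ∣ Nat.card (Subgroup.centralizer ({(y : G)} : Set G)) := orderOf_dvd_natCard _
    rw [Subgroup.orderOf_mk, ht] at h5
    rw [← Nat.not_even_iff_odd] at h3
    exact h3 (even_iff_two_dvd.mpr h5)

end Cfsg.Agent.H3.EvenDef
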