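import Mathlib
import Cfsg.Prelude.Def_Local
import Cfsg.Agent.H3_CharGal
import Cfsg.Agent.H3_CharCalc

/-!
# Fields of values of group elements
-/

set_option autoImplicit false

open scoped ComplexConjugate

namespace Cfsg.Agent.H3.FV

open Cfsg Cfsg.Agent.H3.CharBasic Cfsg.Agent.H3.CharIrr Cfsg.Agent.H3.CharComplete
  Cfsg.Agent.H3.CharInd Cfsg.Agent.H3.CharInt Cfsg.Agent.H3.CharGal

section Field

variable {N : ℕ} [NeZero N]

theorem mem_adjoin_iff {S : Set ℂ} (hS : ∀ s ∈ S, s ∈ Cyc N) (x : Cyc N) :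
    (x : ℂ) ∈ IntermediateField.adjoin ℚ S ↔
      ∀ σ : Cyc N ≃ₐ[ℚ] Cyc N, (∀ s : Cyc N, (s : ℂ) ∈ S → σ s = s) → σ x = x := by
  obtain ⟨E', hE'⟩ : ∃ E' : IntermediateField ℚ (Cyc N), E' = IntermediateField.adjoin ℚ {s : Cyc N | (s : ℂ) ∈ S} := ⟨_, rfl⟩
  obtain ⟨f, hf⟩ : ∃ f : Cyc N →ₐ[ℚ] ℂ, ∀ x : Cyc N, f x = (x : ℂ) := ⟨(algebraMap (Cyc N) ℂ).toRatAlgHom, fun _ => rfl⟩
  have h1 : E'.map f = IntermediateField.adjoin ℚ S := by
    rw [hE', IntermediateField.adjoin_map]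
    congr 1
    ext z
    constructor
    · rintro ⟨s, hs, rfl⟩
      rw [hf]; exact hs
    · intro hz; exact ⟨⟨z, hS z hz⟩, hz, hf _⟩
  have h2 : (x : ℂ) ∈ IntermediateField.adjoin ℚ S ↔ x ∈ E' := by
    rw [← h1]
    constructor
    · rintro ⟨y, hy, hyx⟩
      have : y = x := by
        have h3 : f y = (x : ℂ) := hyx
        rw [hf] at h3
        exact Subtype.ext h3
      rwa [← this]
    · intro h
      exact ⟨x, h, hf x⟩
  rw [h2]
  constructor
  · intro h σ hσ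
    have h3 : E' ≤ IntermediateField.fixedField (Subgroup.zpowers σ) := by
      rw [hE', IntermediateField.adjoin_le_iff]
      intro s hs
      rw [SetLike.mem_coe, IntermediateField.mem_fixedField_iff]
      intro τ hτ
      obtain ⟨k, rfl⟩ := Subgroup.mem_zpowers_iff.mp hτ
      have h4 : σ • s = s := hσ s hs
      have h5 : (σ ^ k) • s = s := by
        have : σ ∈ MulAction.stabilizer (Cyc N ≃ₐ[ℚ] Cyc N) s := h4
        exact (MulAction.stabilizer (Cyc N ≃ₐ[ℚ] Cyc N) s).zpow_mem this k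
      exact h5
    have h6 := h3 h
    rw [IntermediateField.mem_fixedField_iff] at h6
    exact h6 σ (Subgroup.mem_zpowers σ)
  · intro h
    rw [← IsGalois.fixedField_fixingSubgroup E', IntermediateField.mem_fixedField_iff]
    intro σ hσ
    apply h
    intro s hs
    rw [IntermediateField.mem_fixingSubgroup_iff] at hσ
    exact hσ s (by rw [hE']; exact IntermediateField.subset_adjoin ℚ _ hs)

theorem adjoin_eq_iff {S T : Set ℂ} (hS : ∀ s ∈ S, s ∈ Cyc N) (hT : ∀ s ∈ T, s ∈ Cyc N) :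
    IntermediateField.adjoin ℚ S = IntermediateField.adjoin ℚ T ↔
      ∀ σ : Cyc N ≃ₐ[ℚ] Cyc N, (∀ s : Cyc N, (s : ℂ) ∈ S → σ s = s) ↔ (∀ s : Cyc N, (s : ℂ) ∈ T → σ s = s) := by
  constructor
  · intro h σ
    constructor
    · intro hσ t ht
      have h1 : (t : ℂ) ∈ IntermediateField.adjoin ℚ S := by rw [h]; exact IntermediateField.subset_adjoin ℚ _ ht
      exact (mem_adjoin_iff hS t).mp h1 σ hσ
    · intro hσ t ht
      have h1 : (t : ℂ) ∈ IntermediateField.adjoin ℚ T := by rw [← h]; exact IntermediateField.subset_adjoin ℚ _ ht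
      exact (mem_adjoin_iff hT t).mp h1 σ hσ
  · intro h
    apply le_antisymm
    · rw [IntermediateField.adjoin_le_iff]
      intro s hs
      exact (mem_adjoin_iff hT ⟨s, hS s hs⟩).mpr (fun σ hσ => (h σ).mpr hσ _ hs)
    · rw [IntermediateField.adjoin_le_iff]
      intro s hs
      exact (mem_adjoin_iff hS ⟨s, hT s hs⟩).mpr (fun σ hσ => (h σ).mp hσ _ hs)

end Field

section Val

variable {G : Type*} [Group G] [Finite G]

/-- characters separate classes -/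
theorem isConj_of_forall {g h : G} (hh : ∀ χ : G → ℂ, IsIrrCharacter G χ → χ h = χ g) : IsConj g h := by
  classical
  have := Fintype.ofFinite G
  have := Fintype.ofFinite (IrrCharacter G)
  by_contra hc
  have h1 := orth2 g h
  rw [if_neg hc] at h1
  have h2 := orth2 g g
  rw [if_pos (IsConj.refl g)] at h2
  rw [Finset.sum_congr rfl (fun χ _ => by rw [hh χ χ.2]), h2] at h1
  exact Nat.card_pos.ne' (by exact_mod_cast h1 : Nat.card (Subgroup.centralizer ({g} : Set G)) = 0)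

/-- the values at `g` -/
def Vals (g : G) : Set ℂ := {z : ℂ | ∃ χ : Cfsg.IrrCharacter G, (χ : G → ℂ) g = z}

variable {N : ℕ} [NeZero N]

theorem vals_mem {g : G} (hg : g ^ N = 1) : ∀ s ∈ Vals g, s ∈ Cyc N := by
  rintro s ⟨χ, rfl⟩
  exact IsChar.mem_cyc (IsIrr.isCharacter χ.2) g hg

theorem fix_vals {g : G} (hg : g ^ N = 1) {σ : Cyc N ≃ₐ[ℚ] Cyc N} {m : ℕ} (hσ : ActsAs N σ m) :
    (∀ s : Cyc N, (s : ℂ) ∈ Vals g → σ s = s) ↔ IsConj g (g ^ m) := by
  constructor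
  · intro h
    apply isConj_of_forall
    intro χ hχ
    have hm := IsChar.mem_cyc (IsIrr.isCharacter hχ) g hg
    have h1 := IsChar.gal (IsIrr.isCharacter hχ) g hg hσ ⟨χ g, hm⟩ rfl
    rw [← h1, h ⟨χ g, hm⟩ ⟨⟨χ, hχ⟩, rfl⟩]
  · rintro h s ⟨χ, hs⟩
    have h1 := IsChar.gal (IsIrr.isCharacter χ.2) g hg hσ s hs.symm
    apply Subtype.ext
    rw [h1, ← hs]
    exact (IsClass.eq_of_isConj (IsIrr.isClass χ.2) h).symm

/-- the combined criterion: `c = 1` or `c = -1` -/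
theorem field_iff {n : ℕ} {ζ : ℂ} (hζ : IsPrimitiveRoot ζ (2 ^ (n - 1))) (hn : 2 ≤ n) {c : ℂ} (hc : c = 1 ∨ c = -1) {g : G}
    (hg : g ^ 2 ^ n = 1) :
    IntermediateField.adjoin ℚ (Vals g) = IntermediateField.adjoin ℚ ({ζ + c * ζ⁻¹} : Set ℂ) ↔
      ∀ m : ℕ, Odd m → (IsConj g (g ^ m) ↔ (ζ ^ m = ζ ∨ ζ ^ (m + 1) = c)) := by
  have hN : NeZero (2 ^ n) := ⟨by positivity⟩
  have hζ0 : ζ ≠ 0 := hζ.ne_zero (by positivity)
  have hζn : ζ ^ 2 ^ n = 1 := by
    have : 2 ^ n = 2 ^ (n - 1) * 2 := by rw [← pow_succ]; congr 1; omega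
    rw [this, pow_mul, hζ.pow_eq_one, one_pow]
  have hζm : ζ ∈ Cyc (2 ^ n) := root_mem hζn
  have hcm : c ∈ Cyc (2 ^ n) := by
    rcases hc with rfl | rfl
    · exact one_mem _
    · exact neg_mem (one_mem _)
  have hc2 : c * c = 1 := by rcases hc with rfl | rfl <;> norm_num
  have hT : ∀ s ∈ ({ζ + c * ζ⁻¹} : Set ℂ), s ∈ Cyc (2 ^ n) := by
    intro s hs
    rw [Set.mem_singleton_iff.mp hs]
    exact add_mem hζm (mul_mem hcm (inv_mem hζm))
  have hfix : ∀ (σ : Cyc (2 ^ n) ≃ₐ[ℚ] Cyc (2 ^ n)) (m : ℕ), ActsAs (2 ^ n) σ m →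
      ((∀ s : Cyc (2 ^ n), (s : ℂ) ∈ ({ζ + c * ζ⁻¹} : Set ℂ) → σ s = s) ↔ (ζ ^ m = ζ ∨ ζ ^ (m + 1) = c)) := by
    intro σ m hσ
    obtain ⟨z, hz⟩ : ∃ z : Cyc (2 ^ n), (z : ℂ) = ζ := ⟨⟨ζ, hζm⟩, rfl⟩
    obtain ⟨d, hd⟩ : ∃ d : Cyc (2 ^ n), (d : ℂ) = c := ⟨⟨c, hcm⟩, rfl⟩
    have hσz : (σ z : ℂ) = ζ ^ m := by
      rw [hσ z (by rw [hz]; exact hζn), hz]
    have hσd : σ d = d := by
      rcases hc with rfl | rfl
      · have : d = 1 := Subtype.ext hd
        rw [this, map_one]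
      · have : d = -1 := Subtype.ext hd
        rw [this, map_neg, map_one]
    have h1 : (∀ s : Cyc (2 ^ n), (s : ℂ) ∈ ({ζ + c * ζ⁻¹} : Set ℂ) → σ s = s) ↔ σ (z + d * z⁻¹) = z + d * z⁻¹ := by
      constructor
      · intro h
        apply h
        rw [Set.mem_singleton_iff]
        push_cast
        rw [hz, hd]
      · intro h s hs
        have : s = z + d * z⁻¹ := by
          apply Subtype.ext
          rw [Set.mem_singleton_iff.mp hs]
          push_cast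
          rw [hz, hd]
        rw [this, h]
    rw [h1]
    have h2 : σ (z + d * z⁻¹) = z + d * z⁻¹ ↔ ζ ^ m + c * (ζ ^ m)⁻¹ = ζ + c * ζ⁻¹ := by
      rw [map_add, map_mul, map_inv₀, hσd, ← Subtype.coe_inj]
      push_cast
      rw [hσz, hz, hd]
    rw [h2]
    have h3 : ζ ^ m ≠ 0 := pow_ne_zero _ hζ0
    have h4 : ζ ^ m + c * (ζ ^ m)⁻¹ = ζ + c * ζ⁻¹ ↔ (ζ ^ m - ζ) * (ζ ^ (m + 1) - c) = 0 := by
      have h5 : (ζ ^ m - ζ) * (ζ ^ (m + 1) - c) = (ζ ^ m + c * (ζ ^ m)⁻¹ - (ζ + c * ζ⁻¹)) * (ζ ^ m * ζ) := by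
        rw [pow_succ]
        field_simp
        ring
      rw [h5, mul_eq_zero, sub_eq_zero]
      constructor
      · exact fun h => Or.inl h
      · rintro (h | h)
        · exact h
        · exact absurd h (mul_ne_zero h3 hζ0)
    rw [h4, mul_eq_zero, sub_eq_zero, sub_eq_zero]
  rw [adjoin_eq_iff (vals_mem hg) hT]
  have hcop : ∀ m : ℕ, m.Coprime (2 ^ n) ↔ Odd m := by
    intro m
    rw [Nat.coprime_pow_right_iff (by omega), Nat.coprime_two_right]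
  constructor
  · intro h m hm
    obtain ⟨σ, hσ⟩ := exists_gal (2 ^ n) m ((hcop m).mpr hm)
    rw [← fix_vals hg hσ, h σ, hfix σ m hσ]
  · intro h σ
    obtain ⟨m, hm, hσ⟩ := gal_actsAs (2 ^ n) σ
    rw [fix_vals hg hσ, hfix σ m hσ]
    exact h m ((hcop m).mp hm)

end Val

end Cfsg.Agent.H3.FV
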