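import Mathlib
import Cfsg.Prelude.Def_Local
import Cfsg.Agent.H3_FV
import Cfsg.Agent.H3_P4
import Cfsg.Agent.H2_MaxClass
import Cfsg.Agent.S0646

/-!
# Fields of values and 2-groups of maximal class
-/

set_option autoImplicit false

open scoped ComplexConjugate commutatorElement

namespace Cfsg.Agent.H3.FV

universe u

section Norm

variable {G : Type*} [Group G] [Finite G] (P : Sylow 2 G)

theorem card_range_dvd {g : G} {k : ℕ} (hg : orderOf g = 2 ^ k) :
    Nat.card (Subgroup.zpowers g).normalizerMonoidHom.range ∣ 2 ^ (k - 1) := by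
  refine (Subgroup.card_subgroup_dvd_card _).trans ?_
  rw [IsCyclic.card_mulAut, Nat.card_zpowers, hg]
  rcases Nat.eq_zero_or_pos k with rfl | hk
  · simp
  · rw [Nat.totient_prime_pow Nat.prime_two hk]
    simp

theorem hom_decomp {N M : Type*} [Group N] [Finite N] [Group M] (φ : N →* M) {j : ℕ} (hr : Nat.card φ.range ∣ 2 ^ j)
    (Q : Sylow 2 N) (x : N) : ∃ y ∈ (Q : Subgroup N), φ y = φ x := by
  have h2 : Fact (Nat.Prime 2) := ⟨Nat.prime_two⟩
  have hfin : Finite φ.range := Finite.of_surjective _ φ.rangeRestrict_surjective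
  have hidx : ((Q : Subgroup N).map φ.rangeRestrict).index ∣ (Q : Subgroup N).index :=
    Subgroup.index_map_dvd _ φ.rangeRestrict_surjective
  have htop : (Q : Subgroup N).map φ.rangeRestrict = ⊤ := by
    rw [← Subgroup.index_eq_one]
    have h3 : ((Q : Subgroup N).map φ.rangeRestrict).index ∣ 2 ^ j := (Subgroup.index_dvd_card _).trans hr
    obtain ⟨i, _, hi⟩ := (Nat.dvd_prime_pow Nat.prime_two).mp h3
    rcases Nat.eq_zero_or_pos i with rfl | hi0
    · rw [hi, pow_zero]
    · exfalso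
      apply Q.not_dvd_index
      exact (dvd_pow_self 2 hi0.ne').trans (hi ▸ hidx)
  have h4 : φ.rangeRestrict x ∈ (Q : Subgroup N).map φ.rangeRestrict := by rw [htop]; trivial
  obtain ⟨y, hy, hyx⟩ := h4
  exact ⟨y, hy, congrArg Subtype.val hyx⟩

/-- transitivity of `P` on the conjugates of `g` within `⟨g⟩` -/
theorem norm_decomp {g : G} {k : ℕ} (hg : orderOf g = 2 ^ k)
    (hPN : (P : Subgroup G) ≤ Subgroup.normalizer ((Subgroup.zpowers g : Subgroup G) : Set G)) {x : G}
    (hx : x ∈ Subgroup.normalizer ((Subgroup.zpowers g : Subgroup G) : Set G)) :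
    ∃ y ∈ (P : Subgroup G), x * g * x⁻¹ = y * g * y⁻¹ := by
  obtain ⟨y, hy, h5⟩ := hom_decomp (Subgroup.zpowers g).normalizerMonoidHom (card_range_dvd hg) (P.subtype hPN) ⟨x, hx⟩
  have h6 := congrArg (fun α : MulAut (Subgroup.zpowers g) => ((α ⟨g, Subgroup.mem_zpowers g⟩ : Subgroup.zpowers g) : G)) h5
  exact ⟨y, hy, h6.symm⟩

theorem centralizer_eq (g : G) : Subgroup.centralizer ((Subgroup.zpowers g : Subgroup G) : Set G) = Subgroup.centralizer ({g} : Set G) := by
  ext x
  rw [Subgroup.mem_centralizer_singleton_iff, Subgroup.mem_centralizer_iff]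
  constructor
  · intro h
    exact (h g (Subgroup.mem_zpowers g)).symm
  · intro h y hy
    obtain ⟨i, rfl⟩ := Subgroup.mem_zpowers_iff.mp hy
    exact ((show Commute x g from h).zpow_right i).symm.eq

theorem index_even {g : G} {k : ℕ} (hg : orderOf g = 2 ^ k)
    (hPN : (P : Subgroup G) ≤ Subgroup.normalizer ((Subgroup.zpowers g : Subgroup G) : Set G)) {y : G} (hy : y ∈ (P : Subgroup G))
    (hne : y * g * y⁻¹ ≠ g) : 2 ∣ (Subgroup.centralizer ({g} : Set G)).index := by
  by_contra hcon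
  have h1 : (Subgroup.centralizer ({g} : Set G)).relIndex (Subgroup.normalizer ((Subgroup.zpowers g : Subgroup G) : Set G)) =
      Nat.card (Subgroup.zpowers g).normalizerMonoidHom.range := by
    rw [← Subgroup.index_ker, Subgroup.normalizerMonoidHom_ker, ← centralizer_eq]
    rfl
  have hle : Subgroup.centralizer ({g} : Set G) ≤ Subgroup.normalizer ((Subgroup.zpowers g : Subgroup G) : Set G) := by
    rw [← centralizer_eq]
    intro x hx
    rw [Subgroup.mem_normalizer_iff]
    intro h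
    constructor
    · intro hh
      have := (Subgroup.mem_centralizer_iff.mp hx) h hh
      rw [← this]
      simpa using hh
    · intro hh
      have h2 := (Subgroup.mem_centralizer_iff.mp hx) _ hh
      have h3 : x * h * x⁻¹ = h := by
        have h4 : x * h = x * (x * h * x⁻¹) := by
          rw [← h2]; group
        have h5 := mul_left_cancel h4
        exact h5.symm
      rwa [h3] at hh
  have h2 := Subgroup.relIndex_mul_index hle
  have h3 := card_range_dvd hg
  rw [← h1] at h3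
  obtain ⟨j, _, hj⟩ := (Nat.dvd_prime_pow Nat.prime_two).mp h3
  have hj0 : j = 0 := by
    by_contra hj0
    apply hcon
    rw [← h2, hj]
    exact Dvd.dvd.mul_right (dvd_pow_self 2 hj0) _
  rw [hj0, pow_zero] at hj
  have h4 := Subgroup.relIndex_eq_one.mp hj
  have h5 := h4 (hPN hy)
  rw [Subgroup.mem_centralizer_singleton_iff] at h5
  apply hne
  rw [h5]; group

end Norm

section Struct

open Subgroup

theorem struct {S : Type u} [Group S] [Finite S] {n : ℕ} (hn : 3 ≤ n) (hS : Nat.card S = 2 ^ n)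
    (hi : (commutator S).index = 4) : ∃ a b : S, orderOf a = 2 ^ (n - 1) ∧ b ∉ Subgroup.zpowers a ∧
      (b * a * b⁻¹ = a⁻¹ ∨ (4 ≤ n ∧ b * a * b⁻¹ = a ^ (2 ^ (n - 2) - 1))) := by
  have h2 : Fact (Nat.Prime 2) := ⟨Nat.prime_two⟩
  have hpg : IsPGroup 2 S := IsPGroup.iff_card.2 ⟨_, hS⟩
  have := hpg.isNilpotent
  have hcl := H2.MaxClass.max_of_klein n S hn hS hi
  obtain ⟨C, hC, hCi⟩ := H2.MaxClass.exists_cyclic n S hn hS hcl
  have hna : ∃ x y : S, x * y ≠ y * x := by
    by_contra hcon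
    push Not at hcon
    exact H2.MaxClass.not_comm_of_class (by omega) hcon
  obtain ⟨a, b, ha, hb, hcase⟩ := S0646.result n hn hS C hC hCi hna
  have hcard : Nat.card S = 2 * 2 ^ (n - 1) := by
    rw [hS, ← pow_succ']; congr 1; omega
  rcases hcase with ⟨hb2, hab⟩ | ⟨hb2, hab⟩ | ⟨h4, hb2, hab⟩ | ⟨h4, hb2, hab⟩
  · exact ⟨a, b, ha, hb, Or.inl hab⟩
  · exact ⟨a, b, ha, hb, Or.inl hab⟩
  · exfalso
    obtain ⟨hc1, -, -⟩ := H2.MaxClass.center_of_max (p := 2) hS hn hcl
    have hgen : zpowers a ⊔ zpowers b = ⊤ := by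
      have h1 : zpowers a < zpowers a ⊔ zpowers b := by
        refine lt_of_le_of_ne le_sup_left (fun h => hb ?_)
        rw [h]; exact mem_sup_right (mem_zpowers b)
      by_contra hne
      have h3 := H2.Card.card_lt_of_lt h1
      have h4 := H2.Card.card_lt_of_lt (lt_top_iff_ne_top.2 hne)
      rw [Subgroup.card_top, hcard] at h4
      obtain ⟨m, hm⟩ := card_dvd_of_le (le_sup_left : zpowers a ≤ zpowers a ⊔ zpowers b)
      rw [Nat.card_zpowers, ha] at h3 hm
      rw [hm] at h3 h4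
      have h5 : 0 < 2 ^ (n - 1) := by positivity
      have h6 : 1 < m := by
        by_contra h6
        have : m ≤ 1 := by omega
        nlinarith
      have h7 : m < 2 := by
        by_contra h7
        have : 2 ≤ m := by omega
        nlinarith
      omega
    have ha2 : a ^ 2 ∈ center S := by
      have h1 : b * a ^ 2 * b⁻¹ = a ^ 2 := by
        have h2 : b * a ^ 2 * b⁻¹ = (b * a * b⁻¹) ^ 2 := by rw [conj_pow]
        rw [h2, hab, ← pow_mul, show (1 + 2 ^ (n - 2)) * 2 = 2 + 2 ^ (n - 1) from ?_, pow_add, ← ha, pow_orderOf_eq_one, mul_one]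
        have : n - 1 = n - 2 + 1 := by omega
        rw [this, pow_succ]; ring
      have h2 : (⊤ : Subgroup S) ≤ centralizer {a ^ 2} := by
        rw [← hgen, sup_le_iff, zpowers_le, zpowers_le, mem_centralizer_singleton_iff, mem_centralizer_singleton_iff]
        refine ⟨?_, ?_⟩
        · rw [← pow_succ, ← pow_succ']
        · rw [mul_inv_eq_iff_eq_mul] at h1
          exact h1
      rw [Subgroup.mem_center_iff]
      intro g
      exact mem_centralizer_singleton_iff.1 (h2 (mem_top g))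
    have h1 : Nat.card (zpowers (a ^ 2)) ∣ Nat.card (center S) := card_dvd_of_le (zpowers_le.2 ha2)
    rw [Nat.card_zpowers, hc1] at h1
    have h3 : a ^ 4 = 1 := by
      have := orderOf_dvd_iff_pow_eq_one.1 h1
      rw [← pow_mul] at this
      exact this
    have h5 := orderOf_dvd_of_pow_eq_one h3
    rw [ha] at h5
    have h6 := Nat.le_of_dvd (by norm_num) h5
    have h7 : 2 ^ 3 ≤ 2 ^ (n - 1) := Nat.pow_le_pow_right (by norm_num) (by omega)
    omega
  · exact ⟨a, b, ha, hb, Or.inr ⟨h4, hab⟩⟩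

end Struct

section Conv

variable {G : Type*} [Group G]

/-- the constants -/
def WC (n : ℕ) (c : ℂ) (g w : G) : Prop := (c = 1 ∧ w = 1) ∨ (c = -1 ∧ w = g ^ (2 ^ (n - 2)))

theorem conv {n : ℕ} (hn : 3 ≤ n) {ζ : ℂ} (hζ : IsPrimitiveRoot ζ (2 ^ (n - 1))) {g w : G} (hg : orderOf g = 2 ^ (n - 1)) {c : ℂ}
    (hc : WC n c g w) {m : ℕ} (hm : Odd m) : (ζ ^ m = ζ ∨ ζ ^ (m + 1) = c) ↔ (g ^ m = g ∨ g ^ (m + 1) = w) := by
  have hζ0 : ζ ≠ 0 := hζ.ne_zero (by positivity)
  have key : ∀ i : ℕ, ζ ^ i = 1 ↔ g ^ i = 1 := by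
    intro i
    rw [hζ.pow_eq_one_iff_dvd, ← hg, orderOf_dvd_iff_pow_eq_one]
  have h1 : ζ ^ m = ζ ↔ g ^ m = g := by
    obtain ⟨j, rfl⟩ : ∃ j, m = j + 1 := ⟨m - 1, by obtain ⟨t, ht⟩ := hm; omega⟩
    rw [pow_succ, pow_succ, mul_eq_right₀ hζ0, mul_eq_right, key]
  rw [h1]
  apply or_congr Iff.rfl
  rcases hc with ⟨rfl, rfl⟩ | ⟨rfl, rfl⟩
  · exact key _
  · have e1 : 2 ^ (n - 2) * 2 = 2 ^ (n - 1) := by rw [← pow_succ]; congr 1; omega
    have hh : ζ ^ 2 ^ (n - 2) = -1 := by
      have h2 : (ζ ^ 2 ^ (n - 2)) ^ 2 = 1 := by rw [← pow_mul, e1, hζ.pow_eq_one]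
      have h2' : (ζ ^ 2 ^ (n - 2) - 1) * (ζ ^ 2 ^ (n - 2) + 1) = 0 := by linear_combination h2
      rcases mul_eq_zero.mp h2' with h | h
      · exfalso
        have h3 := (hζ.pow_eq_one_iff_dvd _).mp (sub_eq_zero.mp h)
        have h4 := Nat.le_of_dvd (by positivity) h3
        have h5 : 2 ^ (n - 2) < 2 ^ (n - 1) := Nat.pow_lt_pow_right (by norm_num) (by omega)
        omega
      · exact eq_neg_of_add_eq_zero_left h
    have h3 : ζ ^ (m + 1) = -1 ↔ ζ ^ (m + 1 + 2 ^ (n - 2)) = 1 := by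
      rw [pow_add ζ (m + 1), hh]
      constructor
      · intro h; rw [h]; norm_num
      · intro h; linear_combination -h
    rw [h3, key, pow_add g (m + 1)]
    have h4 : g ^ 2 ^ (n - 2) * g ^ 2 ^ (n - 2) = 1 := by
      rw [← pow_add, ← mul_two, e1, ← hg, pow_orderOf_eq_one]
    constructor
    · intro h
      exact (mul_right_cancel (h4.trans h.symm)).symm
    · intro h
      rw [h, h4]

end Conv

end Cfsg.Agent.H3.FV
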