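import Mathlib
import Cfsg.Prelude.Def_Local
import Cfsg.Agent.H3_FV2

/-!
# Fields of values and 2-groups of maximal class: main
-/

set_option autoImplicit false

open scoped ComplexConjugate commutatorElement

namespace Cfsg.Agent.H3.FV

open Cfsg Cfsg.Agent.H3.CharGal

section Main

variable {G : Type*} [Group G] [Finite G] (P : Sylow 2 G)

theorem odd_index {K : Subgroup G} (h : (P : Subgroup G) ≤ K) : ¬ 2 ∣ K.index :=
  haveI : Fact (Nat.Prime 2) := ⟨Nat.prime_two⟩
  fun h2 => P.not_dvd_index (h2.trans (Subgroup.index_dvd_of_le h))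

theorem mem_zpowers_comm {g y : G} (hy : y ∈ Subgroup.zpowers g) : y * g * y⁻¹ = g := by
  obtain ⟨i, rfl⟩ := Subgroup.mem_zpowers_iff.mp hy
  have := ((Commute.refl g).zpow_left i).eq
  rw [this]; group

theorem conj_iff {g w : G} {k : ℕ} (hg : orderOf g = 2 ^ k)
    (hPN : (P : Subgroup G) ≤ Subgroup.normalizer ((Subgroup.zpowers g : Subgroup G) : Set G))
    (hidx : ∀ y ∈ (P : Subgroup G), y ∉ Subgroup.zpowers g → y * g * y⁻¹ = w * g⁻¹)
    (hex : ∃ y ∈ (P : Subgroup G), y * g * y⁻¹ = w * g⁻¹) (m : ℕ) :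
    IsConj g (g ^ m) ↔ (g ^ m = g ∨ g ^ (m + 1) = w) := by
  constructor
  · intro h
    obtain ⟨x, hx⟩ := isConj_iff.mp h
    have hxN : x ∈ Subgroup.normalizer ((Subgroup.zpowers g : Subgroup G) : Set G) := by
      apply Subgroup.mem_normalizer_fintype
      intro z hz
      obtain ⟨i, rfl⟩ := Subgroup.mem_zpowers_iff.mp hz
      rw [← conj_zpow, hx]
      exact Subgroup.zpow_mem _ (Subgroup.pow_mem _ (Subgroup.mem_zpowers g) m) i
    obtain ⟨y, hy, hxy⟩ := norm_decomp P hg hPN hxN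
    by_cases hyg : y ∈ Subgroup.zpowers g
    · left
      rw [← hx, hxy, mem_zpowers_comm hyg]
    · right
      rw [pow_succ, ← hx, hxy, hidx y hy hyg]
      group
  · rintro (h | h)
    · rw [h]
    · obtain ⟨y, hy, hyg⟩ := hex
      rw [isConj_iff]
      refine ⟨y, ?_⟩
      rw [hyg, ← h, pow_succ]; group

theorem le_norm {a : P} (hi : (Subgroup.zpowers a).index = 2) :
    (P : Subgroup G) ≤ Subgroup.normalizer ((Subgroup.zpowers (a : G) : Subgroup G) : Set G) := by
  have hn : (Subgroup.zpowers a).Normal := Subgroup.normal_of_index_eq_two hi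
  have h1 := Subgroup.le_normalizer_map (H := Subgroup.zpowers a) (P : Subgroup G).subtype
  have h2 : (Subgroup.zpowers a).map (P : Subgroup G).subtype = Subgroup.zpowers (a : G) := by
    rw [MonoidHom.map_zpowers]; rfl
  rw [Subgroup.normalizer_eq_top, h2] at h1
  refine le_trans ?_ h1
  intro x hx
  exact ⟨⟨x, hx⟩, trivial, rfl⟩

theorem index_two {n : ℕ} (hn : 3 ≤ n) (hP : Nat.card P = 2 ^ n) {a : P} (ha : orderOf a = 2 ^ (n - 1)) :
    (Subgroup.zpowers a).index = 2 := by
  have h1 := Subgroup.card_mul_index (Subgroup.zpowers a)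
  have h2 : Nat.card (P : Subgroup G) = 2 ^ (n - 1) * 2 := by
    rw [← pow_succ, show n - 1 + 1 = n by omega]; exact hP
  rw [Nat.card_zpowers, ha] at h1
  have h3 : 2 ^ (n - 1) * (Subgroup.zpowers a).index = 2 ^ (n - 1) * 2 := h1.trans h2
  exact Nat.eq_of_mul_eq_mul_left (by positivity) h3

theorem fwd' {n : ℕ} (hn : 3 ≤ n) (hP : Nat.card P = 2 ^ n) {ζ : ℂ} (hζ : IsPrimitiveRoot ζ (2 ^ (n - 1)))
    (hi : (commutator P).index = 4) : ∃ g : G, g ∈ (P : Subgroup G) ∧ 2 ∣ (Subgroup.centralizer ({g} : Set G)).index ∧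
      ∃ c : ℂ, (c = 1 ∨ c = -1) ∧ IntermediateField.adjoin ℚ (Vals g) = IntermediateField.adjoin ℚ ({ζ + c * ζ⁻¹} : Set ℂ) := by
  obtain ⟨a, b, ha, hb, hab⟩ := struct hn hP hi
  have hne : b * a * b⁻¹ ≠ a := by
    intro h
    rcases hab with h' | ⟨h4, h'⟩
    · rw [h] at h'
      have h1 : a ^ 2 = 1 := by rw [pow_two]; nth_rewrite 1 [h']; group
      have h2 := Nat.le_of_dvd (by norm_num) (orderOf_dvd_of_pow_eq_one h1)
      rw [ha] at h2
      have h3 : 2 ^ 2 ≤ 2 ^ (n - 1) := Nat.pow_le_pow_right (by norm_num) (by omega)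
      omega
    · rw [h] at h'
      obtain ⟨t, ht⟩ : ∃ t, 2 ^ (n - 2) = t + 1 := Nat.exists_eq_succ_of_ne_zero (by positivity)
      have h1 : a ^ 2 ^ (n - 2) = a ^ 2 := by
        rw [ht, Nat.add_sub_cancel] at h'
        rw [ht, pow_succ, ← h', pow_two]
      have h2 : a ^ 4 = 1 := by
        have h3 : (a ^ 2) ^ 2 = 1 := by
          rw [← h1, ← pow_mul, ← pow_succ, show n - 2 + 1 = n - 1 by omega, ← ha, pow_orderOf_eq_one]
        rw [← pow_mul] at h3
        exact h3
      have h3 := Nat.le_of_dvd (by norm_num) (orderOf_dvd_of_pow_eq_one h2)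
      rw [ha] at h3
      have h4 : 2 ^ 3 ≤ 2 ^ (n - 1) := Nat.pow_le_pow_right (by norm_num) (by omega)
      omega
  obtain ⟨w, c, hc, hwc, hw⟩ : ∃ (w : P) (c : ℂ), (c = 1 ∨ c = -1) ∧ WC n c (a : G) (w : G) ∧ b * a * b⁻¹ = w * a⁻¹ := by
    rcases hab with h | ⟨h4, h⟩
    · exact ⟨1, 1, Or.inl rfl, Or.inl ⟨rfl, rfl⟩, by rw [h, one_mul]⟩
    · refine ⟨a ^ (2 ^ (n - 2)), -1, Or.inr rfl, Or.inr ⟨rfl, rfl⟩, ?_⟩
      obtain ⟨t, ht⟩ : ∃ t, 2 ^ (n - 2) = t + 1 := Nat.exists_eq_succ_of_ne_zero (by positivity)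
      rw [h, ht, Nat.add_sub_cancel, pow_succ]; group
  have h2i := index_two P hn hP ha
  have hPN := le_norm P h2i
  have hg : orderOf (a : G) = 2 ^ (n - 1) := by rw [Subgroup.orderOf_coe]; exact ha
  have hwG : (b : G) * (a : G) * (b : G)⁻¹ = (w : G) * (a : G)⁻¹ := congrArg Subtype.val hw
  refine ⟨a, a.2, index_even P hg hPN b.2 (fun h => hne (Subtype.ext h)), c, hc, ?_⟩
  have hgn : (a : G) ^ 2 ^ n = 1 := by
    rw [show n = n - 1 + 1 by omega, pow_succ, pow_mul, ← hg, pow_orderOf_eq_one, one_pow]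
  rw [field_iff hζ (by omega) hc hgn]
  intro m hm
  rw [conv hn hζ hg hwc hm]
  apply conj_iff P hg hPN
  · intro y hy hyg
    have h1 : b⁻¹ * ⟨y, hy⟩ ∈ Subgroup.zpowers a := by
      rw [Subgroup.mul_mem_iff_of_index_two h2i]
      constructor
      · intro h
        exact absurd ((Subgroup.zpowers a).inv_mem_iff.mp h) hb
      · intro h
        exfalso
        apply hyg
        obtain ⟨i, hi'⟩ := Subgroup.mem_zpowers_iff.mp h
        exact Subgroup.mem_zpowers_iff.mpr ⟨i, congrArg Subtype.val hi'⟩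
    have h2 : (b⁻¹ * ⟨y, hy⟩) * a * (b⁻¹ * ⟨y, hy⟩)⁻¹ = a := mem_zpowers_comm h1
    have h3 : ((b : G)⁻¹ * y) * a * ((b : G)⁻¹ * y)⁻¹ = a := congrArg Subtype.val h2
    rw [← hwG]
    have h4 : y * (a : G) * y⁻¹ = b * (((b : G)⁻¹ * y) * a * ((b : G)⁻¹ * y)⁻¹) * (b : G)⁻¹ := by group
    rw [h4, h3]
  · exact ⟨b, b.2, hwG⟩

theorem bwd' {n : ℕ} (hn : 3 ≤ n) (hP : Nat.card P = 2 ^ n) {ζ : ℂ} (hζ : IsPrimitiveRoot ζ (2 ^ (n - 1)))
    {g : G} (hgP : g ∈ (P : Subgroup G)) (h2 : 2 ∣ (Subgroup.centralizer ({g} : Set G)).index) {c : ℂ} (hc : c = 1 ∨ c = -1)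
    (hE : IntermediateField.adjoin ℚ (Vals g) = IntermediateField.adjoin ℚ ({ζ + c * ζ⁻¹} : Set ℂ)) :
    (commutator P).index = 4 := by
  have hp2 : Fact (Nat.Prime 2) := ⟨Nat.prime_two⟩
  have hcG : c * c = 1 := by rcases hc with rfl | rfl <;> norm_num
  have hnc : ∃ y ∈ (P : Subgroup G), y * g * y⁻¹ ≠ g := by
    by_contra hcon
    push Not at hcon
    refine odd_index P (K := Subgroup.centralizer ({g} : Set G)) (fun y hy => ?_) h2
    rw [Subgroup.mem_centralizer_singleton_iff]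
    have := hcon y hy
    rw [mul_inv_eq_iff_eq_mul] at this
    exact this
  obtain ⟨y, hy, hyg⟩ := hnc
  have hna : ¬ ∀ a b : P, a * b = b * a := by
    intro h
    apply hyg
    have := congrArg Subtype.val (h ⟨y, hy⟩ ⟨g, hgP⟩)
    have h1 : y * g = g * y := this
    rw [h1]; group
  have h4le : 2 ^ 2 ≤ (commutator P).index := P4.index_commutator_ge (p := 2) P.isPGroup' hna
  have hcm : ∀ x y : P, ⁅x, y⁆ ∈ commutator P := fun x y =>
    Subgroup.commutator_mem_commutator (Subgroup.mem_top _) (Subgroup.mem_top _)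
  have hkey : 2 ^ (n - 2) ≤ Nat.card (commutator P) := by
    rcases Nat.lt_or_ge n 4 with hn4 | hn4
    · have hn3 : n = 3 := by omega
      subst hn3
      have h5 : commutator P ≠ ⊥ := by
        intro h
        apply hna
        intro a b
        have h6 := hcm a b
        rw [h, Subgroup.mem_bot] at h6
        exact commutatorElement_eq_one_iff_mul_comm.mp h6
      have h6 := (Subgroup.one_lt_card_iff_ne_bot _).mpr h5
      show 2 ^ 1 ≤ _
      rw [pow_one]
      exact h6
    · have hgn : g ^ 2 ^ n = 1 := by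
        have := pow_card_eq_one' (G := (P : Subgroup G)) (x := ⟨g, hgP⟩)
        have hP' : Nat.card (P : Subgroup G) = 2 ^ n := hP
        rw [hP'] at this
        exact congrArg Subtype.val this
      have hF := (field_iff hζ (by omega) hc hgn).mp hE
      have e1 : 2 ^ (n - 2) * 2 = 2 ^ (n - 1) := by rw [← pow_succ]; congr 1; omega
      have e2 : 2 ^ (n - 1) * 2 = 2 ^ n := by rw [← pow_succ]; congr 1; omega
      have hζ0 : ζ ≠ 0 := hζ.ne_zero (by positivity)
      have hh : ζ ^ 2 ^ (n - 2) = -1 := by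
        have h2 : (ζ ^ 2 ^ (n - 2)) ^ 2 = 1 := by rw [← pow_mul, e1, hζ.pow_eq_one]
        have h2' : (ζ ^ 2 ^ (n - 2) - 1) * (ζ ^ 2 ^ (n - 2) + 1) = 0 := by linear_combination h2
        rcases mul_eq_zero.mp h2' with h | h
        · exfalso
          have h3 := (hζ.pow_eq_one_iff_dvd _).mp (sub_eq_zero.mp h)
          have h4 := Nat.le_of_dvd (by positivity) h3
          have h5 : 0 < 2 ^ (n - 2) := by positivity
          omega
        · exact eq_neg_of_add_eq_zero_left h
      -- the order of `g`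
      have hg1 : g ^ 2 ^ (n - 2) ≠ 1 := by
        intro h
        have hev : Even (2 ^ (n - 2)) := (Nat.even_pow.mpr ⟨even_two, by omega⟩)
        have hodd : Odd (1 + 2 ^ (n - 2)) := odd_one.add_even hev
        have h3 := (hF (1 + 2 ^ (n - 2)) hodd).mp (by rw [pow_add, pow_one, h, mul_one])
        rcases h3 with h3 | h3
        · rw [pow_add, pow_one, hh] at h3
          have h4 : (2 : ℂ) * ζ = 0 := by linear_combination -h3
          rcases mul_eq_zero.mp h4 with h5 | h5
          · norm_num at h5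
          · exact hζ0 h5
        · have h4 : ζ ^ 4 = 1 := by
            have h5 : ζ ^ 2 = -c := by
              have h6 : ζ ^ (1 + 2 ^ (n - 2) + 1) = ζ ^ 2 * ζ ^ 2 ^ (n - 2) := by rw [← pow_add]; congr 1; ring
              rw [h6, hh] at h3
              linear_combination -h3
            have h7 : ζ ^ 4 = ζ ^ 2 * ζ ^ 2 := by ring
            rw [h7, h5]
            linear_combination hcG
          have h5 := Nat.le_of_dvd (by norm_num) ((hζ.pow_eq_one_iff_dvd _).mp h4)
          have h6 : 2 ^ 3 ≤ 2 ^ (n - 1) := Nat.pow_le_pow_right (by norm_num) (by omega)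
          omega
      obtain ⟨k, hk, hgk⟩ := (Nat.dvd_prime_pow Nat.prime_two).mp (orderOf_dvd_of_pow_eq_one hgn)
      have hk1 : n - 1 ≤ k := by
        by_contra hcon
        apply hg1
        apply orderOf_dvd_iff_pow_eq_one.mp
        rw [hgk]
        exact pow_dvd_pow 2 (by omega)
      have hk2 : k ≠ n := by
        rintro rfl
        apply hyg
        have h3 : Subgroup.zpowers (⟨g, hgP⟩ : P) = ⊤ := by
          apply Subgroup.eq_top_of_card_eq
          rw [Nat.card_zpowers, ← Subgroup.orderOf_coe]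
          exact hgk.trans hP.symm
        have h4 : (⟨y, hy⟩ : P) ∈ Subgroup.zpowers (⟨g, hgP⟩ : P) := by rw [h3]; trivial
        exact congrArg Subtype.val (mem_zpowers_comm h4)
      have hg : orderOf g = 2 ^ (n - 1) := by
        rw [hgk]; congr 1; omega
      obtain ⟨w, hwc⟩ : ∃ w : G, WC n c g w := by
        rcases hc with rfl | rfl
        · exact ⟨1, Or.inl ⟨rfl, rfl⟩⟩
        · exact ⟨_, Or.inr ⟨rfl, rfl⟩⟩
      have ha : orderOf (⟨g, hgP⟩ : P) = 2 ^ (n - 1) := by rw [← Subgroup.orderOf_coe]; exact hg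
      have h2i := index_two P hn hP ha
      have hPN := le_norm P h2i
      have h3 : y * g * y⁻¹ ∈ Subgroup.zpowers g :=
        (Subgroup.mem_normalizer_iff.mp (hPN hy) g).mp (Subgroup.mem_zpowers g)
      obtain ⟨m, hm⟩ : ∃ m : ℕ, g ^ m = y * g * y⁻¹ := by
        have := (mem_powers_iff_mem_zpowers (x := g)).mpr h3
        exact (Submonoid.mem_powers_iff _ _).mp this
      have hmodd : Odd m := by
        by_contra hcon
        rw [Nat.not_odd_iff_even] at hcon
        obtain ⟨t, ht⟩ := hcon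
        have h4 : (y * g * y⁻¹) ^ 2 ^ (n - 2) = 1 := by
          rw [← hm, ← pow_mul, show m * 2 ^ (n - 2) = 2 ^ (n - 1) * t by rw [ht, ← e1]; ring, pow_mul, ← hg, pow_orderOf_eq_one, one_pow]
        rw [conj_pow, mul_inv_eq_iff_eq_mul, one_mul, mul_eq_left] at h4
        exact hg1 h4
      have h5 : g ^ m = g ∨ g ^ (m + 1) = w := by
        rw [← conv hn hζ hg hwc hmodd]
        apply (hF m hmodd).mp
        rw [hm]
        exact isConj_iff.mpr ⟨y, rfl⟩
      have h6 : y * g * y⁻¹ = w * g⁻¹ := by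
        rcases h5 with h5 | h5
        · exact absurd (hm.symm.trans h5) hyg
        · rw [← hm, ← h5, pow_succ]; group
      have hww : w * w = 1 ∧ Commute w g ∧ w ^ 2 ^ (n - 3) = 1 := by
        rcases hwc with ⟨-, rfl⟩ | ⟨-, rfl⟩
        · simp
        · have e3 : g ^ 2 ^ (n - 2) * g ^ 2 ^ (n - 2) = 1 := by
            rw [← pow_add, ← mul_two, e1, ← hg, pow_orderOf_eq_one]
          refine ⟨e3, (Commute.refl g).pow_left _, ?_⟩
          obtain ⟨r, hr⟩ : ∃ r, n - 3 = r + 1 := ⟨n - 4, by omega⟩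
          rw [hr, pow_succ' 2 r, pow_mul, pow_two, e3, one_pow]
      -- the commutator
      let e : P := ⁅(⟨y, hy⟩ : P), ⟨g, hgP⟩⁆
      have he : (e : G) = w * (g⁻¹) ^ 2 := by
        show y * g * y⁻¹ * g⁻¹ = _
        rw [h6, pow_two]; group
      have hen : e ^ 2 ^ (n - 3) ≠ 1 := by
        intro h
        have h7 : (e : G) ^ 2 ^ (n - 3) = 1 := by
          have := congrArg Subtype.val h
          simpa using this
        rw [he, (hww.2.1.inv_right.pow_right 2).mul_pow, hww.2.2, one_mul, ← pow_mul, ← pow_succ', inv_pow, inv_eq_one,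
          show n - 3 + 1 = n - 2 by omega] at h7
        exact hg1 h7
      obtain ⟨j, _, hj⟩ := (Nat.dvd_prime_pow Nat.prime_two).mp (show orderOf e ∣ 2 ^ n by
        have h8 : Nat.card (P : Subgroup G) = 2 ^ n := hP
        rw [← h8]; exact orderOf_dvd_natCard e)
      have hj2 : n - 2 ≤ j := by
        by_contra hcon
        apply hen
        apply orderOf_dvd_iff_pow_eq_one.mp
        rw [hj]
        exact pow_dvd_pow 2 (by omega)
      calc 2 ^ (n - 2) ≤ 2 ^ j := Nat.pow_le_pow_right (by norm_num) hj2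
        _ = Nat.card (Subgroup.zpowers e) := by rw [Nat.card_zpowers, hj]
        _ ≤ Nat.card (commutator P) := Nat.le_of_dvd Nat.card_pos (Subgroup.card_dvd_of_le (by
            rw [Subgroup.zpowers_le]; exact hcm _ _))
  have h5 := Subgroup.card_mul_index (commutator P)
  have h6 : Nat.card (P : Subgroup G) = 2 ^ (n - 2) * 4 := by
    rw [show (4 : ℕ) = 2 ^ 2 by norm_num, ← pow_add, show n - 2 + 2 = n by omega]; exact hP
  rw [h6] at h5
  have h7 : 0 < 2 ^ (n - 2) := by positivity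
  have h8 : (commutator P).index ≤ 4 := by
    by_contra hcon
    push Not at hcon
    have : 2 ^ (n - 2) * 4 < Nat.card (commutator P) * (commutator P).index := by nlinarith
    omega
  norm_num at h4le
  omega

end Main

end Cfsg.Agent.H3.FV
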