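import Mathlib
import Cfsg.Prelude.Def_Local
import Cfsg.Agent.H3_AFT
import Cfsg.Agent.H3_CharCalc
import Cfsg.Agent.H3_Extraspecial
import Cfsg.Agent.H1_Coprime
import Cfsg.Agent.H24_FrobSyl

/-!
# Characters multiplicative on pairs of elements of coprime prime power orders
-/

set_option autoImplicit false

open scoped ComplexConjugate

namespace Cfsg.Agent.H3.ProdChar

open Cfsg Cfsg.Agent.H3.CharBasic Cfsg.Agent.H3.CharIrr Cfsg.Agent.H3.CharComplete
  Cfsg.Agent.H3.CharInd Cfsg.Agent.H3.CharInt Cfsg.Agent.H3.CharCalc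

section Lin

variable {G : Type*} [Group G] [Finite G]

/-- the number of linear characters -/
theorem card_lin [Fintype (IrrCharacter G)] [DecidablePred fun χ : IrrCharacter G => (χ : G → ℂ) 1 = 1] :
    (Finset.univ.filter fun χ : IrrCharacter G => (χ : G → ℂ) 1 = 1).card = (commutator G).index := by
  classical
  rw [← AFT.card_hom, ← Fintype.card_subtype, ← Nat.card_eq_fintype_card]
  symm
  refine Nat.card_congr (Equiv.ofBijective (fun l : G →* ℂˣ => (⟨⟨fun g => ((l g : ℂˣ) : ℂ), isIrr_of_hom_units l⟩, by simp⟩ :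
    {χ : IrrCharacter G // (χ : G → ℂ) 1 = 1})) ⟨?_, ?_⟩)
  · intro l l' h
    have h1 := congrArg (fun χ : {χ : IrrCharacter G // (χ : G → ℂ) 1 = 1} => ((χ : IrrCharacter G) : G → ℂ)) h
    ext g
    exact congrFun h1 g
  · rintro ⟨⟨χ, hχ⟩, h1⟩
    obtain ⟨f, hf⟩ := IsChar.hom_units_of_one (IsIrr.isCharacter hχ) h1
    refine ⟨f, ?_⟩
    apply Subtype.ext
    apply Subtype.ext
    funext g
    exact (hf g).symm

theorem norm_lin {χ : G → ℂ} (hχ : IsIrrCharacter G χ) (h1 : χ 1 = 1) (g : G) : χ g * conj (χ g) = 1 := by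
  obtain ⟨f, hf⟩ := IsChar.hom_units_of_one (IsIrr.isCharacter hχ) h1
  rw [← IsChar.inv_eq_conj (IsIrr.isCharacter hχ), hf, hf, map_inv]
  simp

theorem mul_lin {χ : G → ℂ} (hχ : IsIrrCharacter G χ) (h1 : χ 1 = 1) (x y : G) : χ (x * y) = χ x * χ y := by
  obtain ⟨f, hf⟩ := IsChar.hom_units_of_one (IsIrr.isCharacter hχ) h1
  rw [hf, hf, hf, map_mul]
  simp

/-- the order of a centralizer -/
theorem card_cent [Fintype (IrrCharacter G)] [DecidablePred fun χ : IrrCharacter G => (χ : G → ℂ) 1 = 1] (g : G) :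
    (Nat.card (Subgroup.centralizer ({g} : Set G)) : ℝ) = (commutator G).index +
      ∑ χ ∈ Finset.univ.filter (fun χ : IrrCharacter G => ¬ (χ : G → ℂ) 1 = 1), ‖(χ : G → ℂ) g‖ ^ 2 := by
  classical
  have := Fintype.ofFinite G
  have h1 := orth2 g g
  rw [if_pos (IsConj.refl g), ← Finset.sum_filter_add_sum_filter_not Finset.univ (fun χ : IrrCharacter G => (χ : G → ℂ) 1 = 1)] at h1
  rw [Finset.sum_congr rfl (fun χ hχ => norm_lin χ.2 (Finset.mem_filter.mp hχ).2 g), Finset.sum_const, card_lin,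
    nsmul_eq_mul, mul_one] at h1
  rw [← Complex.ofReal_inj]
  push_cast
  rw [← h1]
  congr 1
  refine Finset.sum_congr rfl fun χ _ => ?_
  rw [Complex.mul_conj, Complex.normSq_eq_norm_sq]
  push_cast
  rfl

theorem card_cent_ge (g : G) : (commutator G).index ≤ Nat.card (Subgroup.centralizer ({g} : Set G)) := by
  classical
  have := Fintype.ofFinite (IrrCharacter G)
  have h := card_cent g
  have h2 : (0 : ℝ) ≤ ∑ χ ∈ Finset.univ.filter (fun χ : IrrCharacter G => ¬ (χ : G → ℂ) 1 = 1), ‖(χ : G → ℂ) g‖ ^ 2 :=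
    Finset.sum_nonneg fun χ _ => by positivity
  have h3 : ((commutator G).index : ℝ) ≤ Nat.card (Subgroup.centralizer ({g} : Set G)) := by linarith
  exact_mod_cast h3

theorem card_cent_eq {g : G} (h : ∀ χ : G → ℂ, IsIrrCharacter G χ → χ 1 ≠ 1 → χ g = 0) :
    Nat.card (Subgroup.centralizer ({g} : Set G)) = (commutator G).index := by
  classical
  have := Fintype.ofFinite (IrrCharacter G)
  have h1 := card_cent g
  rw [Finset.sum_eq_zero (fun χ hχ => by rw [h χ χ.2 (Finset.mem_filter.mp hχ).2]; simp), add_zero] at h1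
  exact_mod_cast h1

theorem vanish_of_card {g : G} (h : Nat.card (Subgroup.centralizer ({g} : Set G)) ≤ (commutator G).index)
    {χ : G → ℂ} (hχ : IsIrrCharacter G χ) (h1 : χ 1 ≠ 1) : χ g = 0 := by
  classical
  have := Fintype.ofFinite (IrrCharacter G)
  have h2 := card_cent g
  have h3 : ∑ χ ∈ Finset.univ.filter (fun χ : IrrCharacter G => ¬ (χ : G → ℂ) 1 = 1), ‖(χ : G → ℂ) g‖ ^ 2 ≤ 0 := by
    have h4 : (Nat.card (Subgroup.centralizer ({g} : Set G)) : ℝ) ≤ (commutator G).index := by exact_mod_cast h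
    linarith
  have h5 := (Finset.sum_eq_zero_iff_of_nonneg (fun χ _ => by positivity)).mp
    (le_antisymm h3 (Finset.sum_nonneg fun χ _ => by positivity)) ⟨χ, hχ⟩ (by
      rw [Finset.mem_filter]
      exact ⟨Finset.mem_univ _, h1⟩)
  have h6 : ‖χ g‖ ^ 2 = 0 := h5
  have h7 : ‖χ g‖ = 0 := by
    exact pow_eq_zero_iff (two_ne_zero) |>.mp h6
  exact norm_eq_zero.mp h7

/-- a character vanishing off the identity of a subgroup -/
theorem card_dvd {χ : G → ℂ} (hχ : IsCharacter G χ) (R : Subgroup G) {d : ℕ} (hd : χ 1 = d)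
    (h : ∀ x ∈ R, x ≠ 1 → χ x = 0) : Nat.card R ∣ d := by
  classical
  have := Fintype.ofFinite R
  obtain ⟨n, hn⟩ := ci_char_nat (IsChar.comp hχ R.subtype) (IsIrr.isCharacter (isIrr_one (G := R)))
  rw [classInner, Finset.sum_eq_single (1 : R)] at hn
  · simp only [map_one] at hn
    have h1 : (Nat.card R : ℂ) ≠ 0 := by exact_mod_cast Nat.card_pos.ne'
    have h2 : (d : ℂ) = Nat.card R * n := by
      rw [← hn]
      have h3 : χ (R.subtype 1) = d := by rw [map_one]; exact hd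
      first
        | rw [h3]
        | rw [hd]
      field_simp
    exact ⟨n, by exact_mod_cast h2⟩
  · intro x _ hx
    have h3 : χ (x : G) = 0 := h x x.2 (fun h' => hx (Subtype.ext h'))
    show χ (x : G) * _ = 0
    rw [h3, zero_mul]
  · intro h'
    exact absurd (Finset.mem_univ _) h'

/-- the hypothesis gives vanishing products -/
theorem mul_vanish {χ : G → ℂ} (hχ : IsIrrCharacter G χ) (h1 : χ 1 ≠ 1) {x y : G}
    (h : ∀ a : G, χ (a * x * a⁻¹ * y) = χ (a * x * a⁻¹) * χ y) : χ x * χ y = 0 := by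
  have := Fintype.ofFinite G
  have h2 := IsIrr.sum_conj_mul hχ x y
  have h3 : ∀ a : G, χ (a * x * a⁻¹ * y) = χ x * χ y := by
    intro a
    rw [h a]
    congr 1
    exact IsIrr.isClass hχ x a
  rw [Finset.sum_congr rfl (fun a _ => h3 a), Finset.sum_const, Finset.card_univ, ← Nat.card_eq_fintype_card, nsmul_eq_mul] at h2
  have h4 : (Nat.card G : ℂ) ≠ 0 := by exact_mod_cast Nat.card_pos.ne'
  have h5 := IsIrr.one_ne_zero hχ
  rw [eq_div_iff h5] at h2
  have h6 : (Nat.card G : ℂ) * (χ x * χ y) * (χ 1 - 1) = 0 := by linear_combination h2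
  rcases mul_eq_zero.mp h6 with h7 | h7
  · rcases mul_eq_zero.mp h7 with h8 | h8
    · exact absurd h8 h4
    · exact h8
  · exact absurd (sub_eq_zero.mp h7) h1

/-- squares of nonlinear degrees -/
theorem deg_sq_lt {χ : G → ℂ} (hχ : IsIrrCharacter G χ) {d : ℕ} (hd : χ 1 = d) (h1 : d ≠ 1) : d ^ 2 < Nat.card G := by
  classical
  have := Fintype.ofFinite G
  have := Fintype.ofFinite (IrrCharacter G)
  have hs := sum_sq (G := G)
  have h2 : ∀ ψ : IrrCharacter G, (ψ : G → ℂ) 1 ^ 2 = ((‖(ψ : G → ℂ) 1‖ ^ 2 : ℝ) : ℂ) := by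
    intro ψ
    obtain ⟨n, hn, hn'⟩ := IsIrr.one_eq_nat ψ.2
    rw [hn']
    simp
  rw [Finset.sum_congr rfl (fun ψ _ => h2 ψ), ← Complex.ofReal_sum] at hs
  have hs' : ∑ ψ : IrrCharacter G, ‖(ψ : G → ℂ) 1‖ ^ 2 = (Nat.card G : ℝ) := by exact_mod_cast hs
  have hne : (⟨χ, hχ⟩ : IrrCharacter G) ≠ ⟨fun _ => 1, isIrr_one⟩ := by
    intro h
    have := congrFun (congrArg Subtype.val h) 1
    simp only [hd] at this
    exact h1 (by exact_mod_cast this)
  have h3 : ∑ ψ ∈ ({⟨χ, hχ⟩, ⟨fun _ => 1, isIrr_one⟩} : Finset (IrrCharacter G)), ‖(ψ : G → ℂ) 1‖ ^ 2 ≤ (Nat.card G : ℝ) := by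
    rw [← hs']
    exact Finset.sum_le_sum_of_subset_of_nonneg (Finset.subset_univ _) (fun ψ _ _ => by positivity)
  rw [Finset.sum_pair hne] at h3
  have h4 : (d : ℝ) ^ 2 + 1 ≤ Nat.card G := by
    simpa [hd] using h3
  have h5 : d ^ 2 + 1 ≤ Nat.card G := by exact_mod_cast h4
  omega

end Lin

section Fwd

variable {G : Type*} [Group G] [Finite G]

/-- hypothesis -/
def Hyp (G : Type*) [Group G] : Prop := ∀ χ : G → ℂ, IsIrrCharacter G χ → χ 1 ≠ 1 → ∀ x y : G, x ≠ 1 → y ≠ 1 →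
  (∃ p q a b : ℕ, p.Prime ∧ q.Prime ∧ p ≠ q ∧ orderOf x = p ^ a ∧ orderOf y = q ^ b) → χ x * χ y = 0

theorem sylow_dvd {χ : G → ℂ} (hχ : IsIrrCharacter G χ) {d : ℕ} (hd : χ 1 = d) {r : ℕ} (hr : r.Prime)
    (h : ∀ y : G, y ≠ 1 → (∃ b, orderOf y = r ^ b) → χ y = 0) : r ^ (Nat.card G).factorization r ∣ d := by
  have : Fact r.Prime := ⟨hr⟩
  obtain ⟨R⟩ : Nonempty (Sylow r G) := inferInstance
  rw [← R.card_eq_multiplicity]
  refine card_dvd (IsIrr.isCharacter hχ) R hd (fun x hx hx1 => h x hx1 ?_)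
  obtain ⟨k, hk⟩ := R.isPGroup' ⟨x, hx⟩
  have h1 : x ^ r ^ k = 1 := congrArg Subtype.val hk
  obtain ⟨b, _, hb⟩ := (Nat.dvd_prime_pow hr).mp (orderOf_dvd_of_pow_eq_one h1)
  exact ⟨b, hb⟩

/-- one prime for all nonlinear characters -/
theorem exists_prime (hyp : Hyp G) {χ₀ : G → ℂ} (hχ₀ : IsIrrCharacter G χ₀) (h0 : χ₀ 1 ≠ 1) : ∃ p : ℕ, p.Prime ∧
    ∀ χ : G → ℂ, IsIrrCharacter G χ → χ 1 ≠ 1 → ∀ r : ℕ, r.Prime → r ≠ p → ∀ y : G, y ≠ 1 → (∃ b, orderOf y = r ^ b) → χ y = 0 := by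
  obtain ⟨p, hp, hp0⟩ : ∃ p : ℕ, p.Prime ∧ ∀ r : ℕ, r.Prime → r ≠ p → ∀ y : G, y ≠ 1 → (∃ b, orderOf y = r ^ b) → χ₀ y = 0 := by
    by_cases hcon : ∃ p : ℕ, p.Prime ∧ ∃ x : G, x ≠ 1 ∧ (∃ a, orderOf x = p ^ a) ∧ χ₀ x ≠ 0
    · obtain ⟨p, hp, x, hx, ⟨a, ha⟩, hne⟩ := hcon
      refine ⟨p, hp, fun r hr hrp y hy ⟨b, hb⟩ => ?_⟩
      have := hyp χ₀ hχ₀ h0 x y hx hy ⟨p, r, a, b, hp, hr, hrp.symm, ha, hb⟩
      rcases mul_eq_zero.mp this with h | h
      · exact absurd h hne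
      · exact h
    · push Not at hcon
      exact ⟨2, Nat.prime_two, fun r hr _ y hy hb => hcon r hr y hy hb⟩
  refine ⟨p, hp, fun χ hχ h1 r hr hrp y hy hyb => ?_⟩
  by_contra hne
  -- all `p`-elements vanish under `χ`
  have hz : ∀ x : G, x ≠ 1 → (∃ b, orderOf x = p ^ b) → χ x = 0 := by
    rintro x hx ⟨a, ha⟩
    obtain ⟨b, hb⟩ := hyb
    have := hyp χ hχ h1 x y hx hy ⟨p, r, a, b, hp, hr, hrp.symm, ha, hb⟩
    rcases mul_eq_zero.mp this with h | h
    · exact h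
    · exact absurd h hne
  obtain ⟨d, hd0, hd⟩ := IsIrr.one_eq_nat hχ
  obtain ⟨e, he0, he⟩ := IsIrr.one_eq_nat hχ₀
  have hd1 : d ≠ 1 := by rintro rfl; exact h1 (by rw [hd]; simp)
  have he1 : e ≠ 1 := by rintro rfl; exact h0 (by rw [he]; simp)
  have hN : Nat.card G ≠ 0 := Nat.card_pos.ne'
  have hA := Nat.le_of_dvd hd0 (sylow_dvd hχ hd hp hz)
  have hB : Nat.card G / p ^ (Nat.card G).factorization p ∣ e := by
    rw [← Nat.factorization_prime_le_iff_dvd (Nat.ordCompl_pos p hN).ne' he0.ne']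
    intro q hq
    by_cases hqp : q = p
    · subst hqp
      rw [Nat.factorization_ordCompl]
      simp
    · have h2 := sylow_dvd hχ₀ he hq (hp0 q hq hqp)
      rw [Nat.factorization_ordCompl, Finsupp.erase_ne hqp]
      exact (hq.pow_dvd_iff_le_factorization he0.ne').mp h2
  have hB' := Nat.le_of_dvd he0 hB
  have hC := deg_sq_lt hχ hd hd1
  have hD := deg_sq_lt hχ₀ he he1
  have hE := Nat.ordProj_mul_ordCompl_eq_self (Nat.card G) p
  obtain ⟨u, hu⟩ : ∃ u, u = p ^ (Nat.card G).factorization p := ⟨_, rfl⟩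
  obtain ⟨v, hv⟩ : ∃ v, v = Nat.card G / p ^ (Nat.card G).factorization p := ⟨_, rfl⟩
  rw [← hu] at hA
  rw [← hv] at hB'
  rw [← hv, ← hu] at hE
  rw [← hE] at hC hD
  have h3 : u < v := by
    by_contra hcon
    push Not at hcon
    nlinarith
  nlinarith

theorem ordCompl_dvd {p : ℕ} (hp : p.Prime) (h : ∀ χ : G → ℂ, IsIrrCharacter G χ → χ 1 ≠ 1 → ∀ r : ℕ, r.Prime → r ≠ p →
    ∀ y : G, y ≠ 1 → (∃ b, orderOf y = r ^ b) → χ y = 0) : Nat.card G / p ^ (Nat.card G).factorization p ∣ (commutator G).index := by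
  classical
  have := Fintype.ofFinite G
  have := Fintype.ofFinite (IrrCharacter G)
  have hN : Nat.card G ≠ 0 := Nat.card_pos.ne'
  have hs := sum_sq (G := G)
  choose d hd0 hd using fun χ : IrrCharacter G => IsIrr.one_eq_nat χ.2
  rw [← Finset.sum_filter_add_sum_filter_not Finset.univ (fun χ : IrrCharacter G => (χ : G → ℂ) 1 = 1)] at hs
  rw [Finset.sum_congr (s₁ := Finset.univ.filter (fun χ : IrrCharacter G => (χ : G → ℂ) 1 = 1)) rfl (g := fun _ => (1 : ℂ))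
      (fun (χ : IrrCharacter G) hχ => show (χ : G → ℂ) 1 ^ 2 = 1 by rw [(Finset.mem_filter.mp hχ).2, one_pow]),
    Finset.sum_const, card_lin, nsmul_eq_mul, mul_one] at hs
  have h2 : (commutator G).index + ∑ χ ∈ Finset.univ.filter (fun χ : IrrCharacter G => ¬ (χ : G → ℂ) 1 = 1), d χ ^ 2 = Nat.card G := by
    have h3 : (((commutator G).index + ∑ χ ∈ Finset.univ.filter (fun χ : IrrCharacter G => ¬ (χ : G → ℂ) 1 = 1), d χ ^ 2 : ℕ) : ℂ) = (Nat.card G : ℂ) := by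
      rw [← hs]
      push_cast
      congr 1
      refine Finset.sum_congr rfl fun χ _ => ?_
      rw [hd χ]
    exact_mod_cast h3
  have h4 : Nat.card G / p ^ (Nat.card G).factorization p ∣ ∑ χ ∈ Finset.univ.filter (fun χ : IrrCharacter G => ¬ (χ : G → ℂ) 1 = 1), d χ ^ 2 := by
    refine Finset.dvd_sum fun χ hχ => ?_
    refine Dvd.dvd.pow ?_ two_ne_zero
    rw [← Nat.factorization_prime_le_iff_dvd (Nat.ordCompl_pos p hN).ne' (hd0 χ).ne']
    intro q hq
    by_cases hqp : q = p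
    · subst hqp
      rw [Nat.factorization_ordCompl]
      simp
    · have h2 := sylow_dvd χ.2 (hd χ) hq (h χ χ.2 (Finset.mem_filter.mp hχ).2 q hq hqp)
      rw [Nat.factorization_ordCompl, Finsupp.erase_ne hqp]
      exact (hq.pow_dvd_iff_le_factorization (hd0 χ).ne').mp h2
  exact (Nat.dvd_add_left h4).mp (h2 ▸ Nat.ordCompl_dvd (Nat.card G) p)

end Fwd

end Cfsg.Agent.H3.ProdChar
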