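import Mathlib
import Cfsg.Prelude.Def_Local
import Cfsg.Agent.H3_ProdChar
import Cfsg.Agent.H3_GalP

/-!
# Characters multiplicative on pairs of elements of coprime prime power orders: structure
-/

set_option autoImplicit false

open scoped ComplexConjugate commutatorElement

namespace Cfsg.Agent.H3.ProdChar

open Cfsg Cfsg.Agent.H3.CharBasic Cfsg.Agent.H3.CharIrr Cfsg.Agent.H3.CharComplete
  Cfsg.Agent.H3.CharInd Cfsg.Agent.H3.CharInt Cfsg.Agent.H3.CharCalc

section Grp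

variable {G : Type*} [Group G] [Finite G]

theorem inf_eq_bot {C D : Subgroup G} (hcov : ∀ x : G, ∃ d ∈ D, x * d ∈ C)
    (hcard : Nat.card C * Nat.card D ≤ Nat.card G) : C ⊓ D = ⊥ := by
  have hs : Function.Surjective (fun z : C × D => (z.1 : G) * (z.2 : G)) := by
    intro x
    obtain ⟨d, hd, h⟩ := hcov x
    exact ⟨⟨⟨x * d, h⟩, ⟨d⁻¹, D.inv_mem hd⟩⟩, by simp⟩
  have hb := hs.bijective_of_nat_card_le (by rw [Nat.card_prod]; exact hcard)
  rw [eq_bot_iff]
  rintro z ⟨h1, h2⟩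
  have h3 := @hb.1 (⟨z, h1⟩, 1) (1, ⟨z, h2⟩) (by simp)
  have h4 := congrArg (fun w : C × D => (w.1 : G)) h3
  rw [Subgroup.mem_bot]
  exact h4

theorem card_le_of_inf {C D : Subgroup G} (h : C ⊓ D = ⊥) : Nat.card C * Nat.card D ≤ Nat.card G := by
  rw [← Nat.card_prod]
  exact Nat.card_le_card_of_injective _ (Subgroup.mul_injective_of_disjoint (disjoint_iff.mpr h))

/-- surjectivity of `e ↦ h⁻¹ e h e⁻¹` -/
theorem surj_of_fpf {D : Subgroup G} [hD : D.Normal] {h : G} (hh : ∀ e ∈ D, e * h = h * e → e = 1) {d : G} (hd : d ∈ D) :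
    ∃ e ∈ D, h⁻¹ * e * h * e⁻¹ = d := by
  let f : D → D := fun e => ⟨h⁻¹ * e * h * (e : G)⁻¹, D.mul_mem (by
    have := hD.conj_mem e e.2 h⁻¹
    simpa using this) (D.inv_mem e.2)⟩
  have hf : Function.Injective f := by
    intro e e' he
    have h1 : h⁻¹ * e * h * (e : G)⁻¹ = h⁻¹ * e' * h * (e' : G)⁻¹ := congrArg Subtype.val he
    have h2 : (e : G) * h * (e : G)⁻¹ = e' * h * (e' : G)⁻¹ := by
      have := congrArg (fun t => h * t) h1
      simpa [mul_assoc] using this
    have h3 : ((e' : G)⁻¹ * e) * h = h * ((e' : G)⁻¹ * e) := by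
      have h4 : (e : G) * h = e' * h * (e' : G)⁻¹ * e := by
        rw [← h2]; group
      calc ((e' : G)⁻¹ * e) * h = (e' : G)⁻¹ * ((e : G) * h) := by group
        _ = (e' : G)⁻¹ * (e' * h * (e' : G)⁻¹ * e) := by rw [h4]
        _ = h * ((e' : G)⁻¹ * e) := by group
    have h5 := hh _ (D.mul_mem (D.inv_mem e'.2) e.2) h3
    apply Subtype.ext
    exact (inv_mul_eq_one.mp h5).symm
  obtain ⟨e, he⟩ := (Finite.injective_iff_surjective.mp hf) ⟨d, hd⟩
  exact ⟨e, e.2, congrArg Subtype.val he⟩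

theorem exists_prime_pow {a : G} (ha : a ≠ 1) : ∃ k q : ℕ, q.Prime ∧ q ∣ orderOf a ∧ orderOf (a ^ k) = q := by
  have h1 : orderOf a ≠ 1 := fun h => ha (orderOf_eq_one_iff.mp h)
  refine ⟨orderOf a / (orderOf a).minFac, (orderOf a).minFac, Nat.minFac_prime h1, Nat.minFac_dvd _, ?_⟩
  exact orderOf_pow_orderOf_div (orderOf_pos a).ne' (Nat.minFac_dvd _)

theorem fwd (hyp : Hyp G) (hna : ¬ ∀ a b : G, a * b = b * a) :
    (∃ p : ℕ, p.Prime ∧ IsPGroup p G) ∨ ∃ (p : ℕ) (_ : Fact p.Prime) (P : Sylow p G) (A : Subgroup G), (P : Subgroup G).Normal ∧ IsCyclic ↥A ∧ A ≠ ⊥ ∧ (Nat.card ↥A).Coprime p ∧ A ⊔ (P : Subgroup G) = ⊤ ∧ IsMulCommutative ↥((P : Subgroup G) ⊓ Subgroup.centralizer (A : Set G)) ∧ (⁅A, (P : Subgroup G)⁆).Normal ∧ ((P : Subgroup G) ⊓ Subgroup.centralizer (A : Set G)) ⊔ ⁅A, (P : Subgroup G)⁆ = (P : Subgroup G) ∧ ((P : Subgroup G) ⊓ Subgroup.centralizer (A : Set G)) ⊓ ⁅A, (P : Subgroup G)⁆ = ⊥ ∧ ∀ a ∈ A, a ≠ 1 → ∀ d ∈ ⁅A, (P : Subgroup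 G)⁆, a * d = d * a → d = 1 := by
  classical
  have := Fintype.ofFinite G
  obtain ⟨χ₀, hχ₀, h0⟩ := GalP.exists_nonlinear hna
  obtain ⟨p, hp, hv⟩ := exists_prime hyp hχ₀ h0
  have hpf : Fact p.Prime := ⟨hp⟩
  have hN : Nat.card G ≠ 0 := Nat.card_pos.ne'
  have hdvd := ordCompl_dvd hp hv
  have hcm : ∀ x y : G, ⁅x, y⁆ ∈ commutator G := fun x y =>
    Subgroup.commutator_mem_commutator (Subgroup.mem_top _) (Subgroup.mem_top _)
  have hGp : IsPGroup p (commutator G) := by
    obtain ⟨k, hk⟩ := hdvd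
    have h1 := Subgroup.card_mul_index (commutator G)
    have h2 := Nat.ordProj_mul_ordCompl_eq_self (Nat.card G) p
    have h3 : Nat.card (commutator G) ∣ p ^ (Nat.card G).factorization p := by
      refine ⟨k, ?_⟩
      apply Nat.eq_of_mul_eq_mul_right (Nat.ordCompl_pos p hN)
      rw [h2]
      conv_lhs => rw [← h1, hk]
      ring
    obtain ⟨n, _, hn⟩ := (Nat.dvd_prime_pow hp).mp h3
    exact IsPGroup.of_card hn
  obtain ⟨P, hGP⟩ := hGp.exists_le_sylow
  have hPn : (P : Subgroup G).Normal := Subgroup.Normal.of_commutator_le (h := hGP)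
  obtain ⟨A, hA⟩ := Subgroup.exists_right_complement'_of_coprime (N := (P : Subgroup G)) P.card_coprime_index
  by_cases hAb : A = ⊥
  · left
    refine ⟨p, hp, ?_⟩
    rw [hAb] at hA
    have h1 : (P : Subgroup G) = ⊤ := Subgroup.isComplement'_bot_right.mp hA
    have h2 : IsPGroup p (⊤ : Subgroup G) := h1 ▸ P.isPGroup'
    exact h2.of_equiv Subgroup.topEquiv
  right
  have hcard : (P : Subgroup G).index = Nat.card A := hA.symm.index_eq_card
  have hcop : (Nat.card A).Coprime p := by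
    rw [← hcard, Nat.coprime_comm, hp.coprime_iff_not_dvd]
    exact P.not_dvd_index
  have hAG : (Nat.card A).Coprime (Nat.card (commutator G)) := by
    obtain ⟨n, hn⟩ := IsPGroup.iff_card.mp hGp
    rw [hn]
    exact hcop.pow_right n
  have hdis : (P : Subgroup G) ⊓ A = ⊥ := hA.disjoint.eq_bot
  have hAc : ∀ a ∈ A, ∀ b ∈ A, a * b = b * a := by
    intro a ha b hb
    have h1 : ⁅a, b⁆ ∈ (P : Subgroup G) ⊓ A := ⟨hGP (hcm a b), by
      rw [commutatorElement_def]
      exact A.mul_mem (A.mul_mem (A.mul_mem ha hb) (A.inv_mem ha)) (A.inv_mem hb)⟩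
    rw [hdis, Subgroup.mem_bot] at h1
    exact commutatorElement_eq_one_iff_mul_comm.mp h1
  have hcov : ∀ B : Subgroup G, B ≤ A → ∀ x : G, ∃ d ∈ commutator G, x * d ∈ Subgroup.centralizer (B : Set G) := by
    intro B hB x
    refine H1.Coprime.exists_mul_mem_centralizer (A := B) (D := commutator G) ?_ ?_ ?_ x ?_
    · rw [Subgroup.normalizer_eq_top]; exact le_top
    · exact hAG.coprime_dvd_left (Subgroup.card_dvd_of_le hB)
    · right
      have : Group.IsNilpotent (commutator G) := hGp.isNilpotent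
      infer_instance
    · intro a _
      have h1 : x⁻¹ * (a * x * a⁻¹) = ⁅x⁻¹, a⁆ := by
        rw [commutatorElement_def]; group
      rw [h1]
      exact hcm _ _
  have hfp : ∀ a ∈ A, a ≠ 1 → Subgroup.centralizer ({a} : Set G) ⊓ commutator G = ⊥ := by
    intro a ha ha1
    obtain ⟨k, q, hq, hqa, hk⟩ := exists_prime_pow ha1
    have hle : Subgroup.centralizer ({a} : Set G) ≤ Subgroup.centralizer ({a ^ k} : Set G) := by
      intro x hx
      rw [Subgroup.mem_centralizer_singleton_iff] at hx ⊢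
      exact (show Commute x a from hx).pow_right k
    have hqp : q ≠ p := by
      rintro rfl
      have h1 : q ∣ Nat.card A := hqa.trans (by
        have := orderOf_dvd_natCard (⟨a, ha⟩ : A)
        rwa [← Subgroup.orderOf_coe] at this)
      exact hq.one_lt.ne' (Nat.Coprime.eq_one_of_dvd hcop.symm h1)
    have hcent := card_cent_eq (g := a ^ k) (fun χ hχ h1 => hv χ hχ h1 q hq hqp (a ^ k) (by
      intro h
      rw [h, orderOf_one] at hk
      exact hq.one_lt.ne hk) ⟨1, by rw [hk, pow_one]⟩)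
    apply inf_eq_bot
    · intro x
      obtain ⟨d, hd, h⟩ := hcov (Subgroup.zpowers a) (by rw [Subgroup.zpowers_le]; exact ha) x
      refine ⟨d, hd, ?_⟩
      rw [Subgroup.mem_centralizer_singleton_iff]
      exact ((Subgroup.mem_centralizer_iff.mp h) a (Subgroup.mem_zpowers a)).symm
    · rw [← Subgroup.card_mul_index (commutator G), mul_comm, ← hcent]
      exact Nat.mul_le_mul_left _ (Nat.le_of_dvd Nat.card_pos (Subgroup.card_dvd_of_le hle))
  have hGne : commutator G ≠ ⊥ := by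
    intro h
    apply hna
    intro a b
    have h1 := hcm a b
    rw [h, Subgroup.mem_bot] at h1
    exact commutatorElement_eq_one_iff_mul_comm.mp h1
  have hAcm : IsMulCommutative A := ⟨⟨fun a b => Subtype.ext (hAc a a.2 b b.2)⟩⟩
  have hcyc : IsCyclic A := H24.FrobSyl.isCyclic_of_abelian (commutator G) A hGne
    (fun h hh h1 => by rw [inf_comm]; exact hfp h hh h1) A le_rfl
  obtain ⟨a₀, ha₀, ha₀1⟩ : ∃ a ∈ A, a ≠ 1 := by
    by_contra hcon
    push Not at hcon
    exact hAb (by rw [eq_bot_iff]; intro x hx; rw [Subgroup.mem_bot]; exact hcon x hx)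
  have hAP : ⁅A, (P : Subgroup G)⁆ = commutator G := by
    apply le_antisymm
    · rw [commutator_def]
      exact Subgroup.commutator_mono le_top le_top
    · intro d hd
      obtain ⟨e, he, h⟩ := surj_of_fpf (D := commutator G) (h := a₀⁻¹) (by
        intro e he h1
        have h2 : e ∈ Subgroup.centralizer ({a₀} : Set G) ⊓ commutator G := by
          refine Subgroup.mem_inf.mpr ⟨?_, he⟩
          rw [Subgroup.mem_centralizer_singleton_iff]
          have := (show Commute e a₀⁻¹ from h1).inv_right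
          rw [inv_inv] at this
          exact this
        rw [hfp a₀ ha₀ ha₀1, Subgroup.mem_bot] at h2
        exact h2) hd
      rw [← h, inv_inv]
      exact Subgroup.commutator_mem_commutator ha₀ (hGP he)
  refine ⟨p, hpf, P, A, hPn, hcyc, hAb, hcop, ?_, ?_, ?_, ?_, ?_, ?_⟩
  · rw [sup_comm]; exact hA.sup_eq_top
  · refine ⟨⟨?_⟩⟩
    rintro ⟨x, hx1, hx2⟩ ⟨y, hy1, hy2⟩
    apply Subtype.ext
    have h1 : ⁅x, y⁆ ∈ Subgroup.centralizer ({a₀} : Set G) ⊓ commutator G := by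
      refine Subgroup.mem_inf.mpr ⟨?_, hcm x y⟩
      have h2 : ⁅x, y⁆ ∈ Subgroup.centralizer (A : Set G) := by
        rw [commutatorElement_def]
        exact Subgroup.mul_mem _ (Subgroup.mul_mem _ (Subgroup.mul_mem _ hx2 hy2) (Subgroup.inv_mem _ hx2)) (Subgroup.inv_mem _ hy2)
      rw [Subgroup.mem_centralizer_singleton_iff]
      exact ((Subgroup.mem_centralizer_iff.mp h2) a₀ ha₀).symm
    rw [hfp a₀ ha₀ ha₀1, Subgroup.mem_bot] at h1
    exact commutatorElement_eq_one_iff_mul_comm.mp h1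
  · rw [hAP]; infer_instance
  · apply le_antisymm
    · rw [hAP]
      exact sup_le inf_le_left hGP
    · intro x hx
      obtain ⟨d, hd, h⟩ := hcov A le_rfl x
      have h1 : x = (x * d) * d⁻¹ := by group
      rw [h1, hAP]
      exact Subgroup.mul_mem _ (Subgroup.mem_sup_left ⟨P.mul_mem hx (hGP hd), h⟩) (Subgroup.mem_sup_right (Subgroup.inv_mem _ hd))
  · rw [eq_bot_iff]
    rintro x ⟨⟨_, hx2⟩, hx3⟩
    rw [hAP] at hx3
    have h1 : x ∈ Subgroup.centralizer ({a₀} : Set G) ⊓ commutator G := by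
      refine Subgroup.mem_inf.mpr ⟨?_, hx3⟩
      rw [Subgroup.mem_centralizer_singleton_iff]
      exact ((Subgroup.mem_centralizer_iff.mp hx2) a₀ ha₀).symm
    rw [hfp a₀ ha₀ ha₀1] at h1
    exact h1
  · intro a ha ha1 d hd h
    rw [hAP] at hd
    have h1 : d ∈ Subgroup.centralizer ({a} : Set G) ⊓ commutator G := by
      refine Subgroup.mem_inf.mpr ⟨?_, hd⟩
      rw [Subgroup.mem_centralizer_singleton_iff]
      exact h.symm
    rw [hfp a ha ha1, Subgroup.mem_bot] at h1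
    exact h1

theorem bwd {p : ℕ} [hp : Fact p.Prime] (P : Sylow p G) (A : Subgroup G) (hPn : (P : Subgroup G).Normal) (hcyc : IsCyclic A)
    (hcop : (Nat.card A).Coprime p) (htop : A ⊔ (P : Subgroup G) = ⊤)
    (hC : IsMulCommutative ((P : Subgroup G) ⊓ Subgroup.centralizer (A : Set G) : Subgroup G))
    (hDn : (⁅A, (P : Subgroup G)⁆).Normal)
    (hsup : ((P : Subgroup G) ⊓ Subgroup.centralizer (A : Set G)) ⊔ ⁅A, (P : Subgroup G)⁆ = (P : Subgroup G))
    (hfpf : ∀ a ∈ A, a ≠ 1 → ∀ d ∈ ⁅A, (P : Subgroup G)⁆, a * d = d * a → d = 1) {g : G} (hg : g ∉ P) :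
    Nat.card (Subgroup.centralizer ({g} : Set G)) ≤ (commutator G).index := by
  obtain ⟨D, hD⟩ : ∃ D, D = ⁅A, (P : Subgroup G)⁆ := ⟨_, rfl⟩
  rw [← hD] at hDn hsup hfpf
  have hAcomm : ∀ a ∈ A, ∀ b ∈ A, a * b = b * a := by
    intro a ha b hb
    have := hcyc.exists_generator
    obtain ⟨z, hz⟩ := this
    obtain ⟨i, hi⟩ := Subgroup.mem_zpowers_iff.mp (hz ⟨a, ha⟩)
    obtain ⟨j, hj⟩ := Subgroup.mem_zpowers_iff.mp (hz ⟨b, hb⟩)
    have h1 : (⟨a, ha⟩ : A) * ⟨b, hb⟩ = ⟨b, hb⟩ * ⟨a, ha⟩ := by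
      rw [← hi, ← hj]
      exact ((Commute.refl z).zpow_zpow i j).eq
    exact congrArg Subtype.val h1
  have hdec : ∀ x : G, ∃ a ∈ A, ∃ c ∈ (P : Subgroup G) ⊓ Subgroup.centralizer (A : Set G), ∃ d ∈ D, x = a * c * d := by
    intro x
    have h1 : x ∈ A ⊔ (P : Subgroup G) := by rw [htop]; trivial
    obtain ⟨a, ha, y, hy, rfl⟩ := Subgroup.mem_sup_of_normal_right.mp h1
    have h2 : y ∈ ((P : Subgroup G) ⊓ Subgroup.centralizer (A : Set G)) ⊔ D := by rw [hsup]; exact hy
    obtain ⟨c, hc, d, hd, rfl⟩ := Subgroup.mem_sup_of_normal_right.mp h2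
    exact ⟨a, ha, c, hc, d, hd, by group⟩
  have hDP : D ≤ (P : Subgroup G) := by rw [← hsup]; exact le_sup_right
  have hle : commutator G ≤ D := by
    rw [commutator_def, Subgroup.commutator_le]
    intro x _ y _
    obtain ⟨a, ha, c, hc, d, hd, rfl⟩ := hdec x
    obtain ⟨a', ha', c', hc', d', hd', rfl⟩ := hdec y
    rw [← QuotientGroup.eq_one_iff]
    have e1 : ((d : G) : G ⧸ D) = 1 := (QuotientGroup.eq_one_iff d).mpr hd
    have e2 : ((d' : G) : G ⧸ D) = 1 := (QuotientGroup.eq_one_iff d').mpr hd'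
    have k1 : Commute a a' := hAcomm a ha a' ha'
    have k2 : Commute c c' := congrArg Subtype.val (hC.is_comm.comm ⟨c, hc⟩ ⟨c', hc'⟩)
    have k3 : Commute a c' := (Subgroup.mem_centralizer_iff.mp hc'.2) a ha
    have k4 : Commute c a' := ((Subgroup.mem_centralizer_iff.mp hc.2) a' ha').symm
    have k5 : Commute (a * c) (a' * c') := (k1.mul_right k3).mul_left (k4.mul_right k2)
    have k6 : ((a : G ⧸ D) * (c : G ⧸ D)) * ((a' : G ⧸ D) * (c' : G ⧸ D)) = ((a' : G ⧸ D) * (c' : G ⧸ D)) * ((a : G ⧸ D) * (c : G ⧸ D)) := by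
      rw [← QuotientGroup.mk_mul, ← QuotientGroup.mk_mul, ← QuotientGroup.mk_mul, ← QuotientGroup.mk_mul, k5.eq]
    rw [commutatorElement_def]
    simp only [QuotientGroup.mk_mul, QuotientGroup.mk_inv, e1, e2, mul_one]
    rw [k6]
    group
  obtain ⟨a, ha, c, hc, d, hd, hgd⟩ := hdec g
  have ha1 : a ≠ 1 := by
    rintro rfl
    apply hg
    rw [hgd, one_mul]
    exact P.mul_mem hc.1 (hDP hd)
  have hac : Commute a c := (Subgroup.mem_centralizer_iff.mp hc.2) a ha
  have hfix : ∀ e ∈ D, e * (a * c) = (a * c) * e → e = 1 := by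
    intro e he h
    have h1 : Commute e ((a * c) ^ Nat.card P) := (show Commute e (a * c) from h).pow_right _
    have h2 : c ^ Nat.card P = 1 := by
      have := pow_card_eq_one' (G := (P : Subgroup G)) (x := ⟨c, hc.1⟩)
      exact congrArg Subtype.val this
    rw [hac.mul_pow, h2, mul_one] at h1
    refine hfpf (a ^ Nat.card P) (A.pow_mem ha _) ?_ e he h1.symm
    intro h3
    have h4 : orderOf a ∣ Nat.card P := orderOf_dvd_of_pow_eq_one h3
    have h5 : orderOf a ∣ Nat.card A := by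
      have := orderOf_dvd_natCard (⟨a, ha⟩ : A)
      rwa [← Subgroup.orderOf_coe] at this
    obtain ⟨n, hn⟩ := IsPGroup.iff_card.mp P.isPGroup'
    have h6 : (Nat.card A).Coprime (Nat.card P) := by
      have h7 : Nat.card P = p ^ n := hn
      rw [h7]
      exact hcop.pow_right n
    have h8 := Nat.eq_one_of_dvd_coprimes h6 h5 h4
    exact ha1 (orderOf_eq_one_iff.mp h8)
  obtain ⟨e, he, hed⟩ := surj_of_fpf hfix hd
  have hconj : e * (a * c) * e⁻¹ = g := by
    rw [hgd, ← hed]; group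
  have hinf : Subgroup.centralizer ({g} : Set G) ⊓ D = ⊥ := by
    rw [eq_bot_iff]
    rintro z ⟨hz1, hz2⟩
    have hz3 : z ∈ Subgroup.centralizer ({g} : Set G) := hz1
    rw [Subgroup.mem_centralizer_singleton_iff, ← hconj] at hz3
    have h1 : (e⁻¹ * z * e) * (a * c) = (a * c) * (e⁻¹ * z * e) := by
      calc (e⁻¹ * z * e) * (a * c) = e⁻¹ * (z * (e * (a * c) * e⁻¹)) * e := by group
        _ = e⁻¹ * ((e * (a * c) * e⁻¹) * z) * e := by rw [hz3]
        _ = (a * c) * (e⁻¹ * z * e) := by group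
    have h2 := hfix _ (by
      have := hDn.conj_mem z hz2 e⁻¹
      simpa using this) h1
    rw [Subgroup.mem_bot]
    have h3 : z = e * (e⁻¹ * z * e) * e⁻¹ := by group
    rw [h3, h2]; group
  have h1 := card_le_of_inf hinf
  have h2 : Nat.card (commutator G) ≤ Nat.card D := Nat.le_of_dvd Nat.card_pos (Subgroup.card_dvd_of_le hle)
  have h3 := Subgroup.card_mul_index (commutator G)
  have h4 : Nat.card (Subgroup.centralizer ({g} : Set G)) * Nat.card (commutator G) ≤ (commutator G).index * Nat.card (commutator G) := by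
    rw [mul_comm (commutator G).index, h3]
    exact (Nat.mul_le_mul_left _ h2).trans h1
  exact Nat.le_of_mul_le_mul_right h4 Nat.card_pos

end Grp

end Cfsg.Agent.H3.ProdChar
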