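import Mathlib
import Cfsg.Agent.H3_GalProd
import Cfsg.Agent.H3_PRes

/-!
# Zeros of irreducible characters
-/

set_option autoImplicit false

open scoped ComplexConjugate

namespace Cfsg.Agent.H3.Zeros

open Cfsg Cfsg.Agent.H3.CharBasic Cfsg.Agent.H3.CharIrr Cfsg.Agent.H3.CharComplete
  Cfsg.Agent.H3.CharMult Cfsg.Agent.H3.CharInd Cfsg.Agent.H3.CharInt Cfsg.Agent.H3.CharGal Cfsg.Agent.H3.GalProd

variable {G : Type*} [Group G] [Fintype G]

theorem norm_pow_eq {χ : G → ℂ} (hχ : IsCharacter G χ) {d : ℕ} (hd : χ 1 = d) {g : G} (hg : ‖χ g‖ = d) (k : ℕ) : ‖χ (g ^ k)‖ = d := by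
  obtain ⟨e, z, he, hz, hc⟩ := IsChar.exists_roots hχ (Nat.card G) Nat.card_pos.ne' g pow_card_eq_one'
  have hed : e = d := by
    have : (e : ℂ) = d := by rw [← he, hd]
    exact_mod_cast this
  subst hed
  have hz1 : ∀ i, ‖z i‖ = 1 := fun i => norm_eq_one_of_pow Nat.card_pos.ne' (hz i)
  have h1 := hc 1
  rw [pow_one] at h1
  rw [h1, Finset.sum_congr rfl fun i _ => pow_one (z i)] at hg
  have hall := all_eq_of_norm_sum_eq z hz1 (by rw [hg, Fintype.card_fin])
  rw [hc k]
  rcases Nat.eq_zero_or_pos e with h0 | h0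
  · subst h0
    simp
  · let i0 : Fin e := ⟨0, h0⟩
    rw [Finset.sum_congr rfl (g := fun _ => z i0 ^ k) (fun i _ => by rw [hall i i0]), Finset.sum_const, Finset.card_univ, Fintype.card_fin,
      nsmul_eq_mul, norm_mul, norm_pow, hz1, one_pow, mul_one, Complex.norm_natCast]

theorem main [DecidableEq G] {χ : G → ℂ} (hχ : IsIrrCharacter G χ) :
    (charDegree χ ^ 2 - 1) * (Finset.univ.filter (fun g : G => ‖χ g‖ = (charDegree χ : ℝ))).card ≤ (Finset.univ.filter (fun g : G => χ g = 0)).card ∧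
      ((∀ g : G, ‖χ g‖ = 0 ∨ ‖χ g‖ = 1 ∨ ‖χ g‖ = (charDegree χ : ℝ)) →
        (charDegree χ ^ 2 - 1) * (Finset.univ.filter (fun g : G => ‖χ g‖ = (charDegree χ : ℝ))).card = (Finset.univ.filter (fun g : G => χ g = 0)).card) := by
  classical
  have : NeZero (Nat.card G) := ⟨Nat.card_pos.ne'⟩
  have hχc := IsIrr.isCharacter hχ
  obtain ⟨d, hd⟩ : ∃ d, charDegree χ = d := ⟨_, rfl⟩
  have hd1 : χ 1 = (d : ℂ) := by rw [PRes.charDegree_cast hχc, hd]
  rw [hd]
  have hdpos : 0 < d := by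
    rw [Nat.pos_iff_ne_zero]
    rintro rfl
    rw [Nat.cast_zero] at hd1
    exact IsIrr.one_ne_zero hχ hd1
  -- the three sets
  let R : Finset G := Finset.univ.filter (fun g : G => χ g ≠ 0 ∧ ‖χ g‖ ≠ (d : ℝ))
  have hnorm : ∑ g : G, ‖χ g‖ ^ 2 = Nat.card G := by
    have h7 := ci_irr_self hχ
    rw [classInner, inv_mul_eq_one₀ card_cast_ne_zero] at h7
    have h8 : (((∑ g : G, ‖χ g‖ ^ 2 : ℝ)) : ℂ) = ((Nat.card G : ℝ) : ℂ) := by
      push_cast
      rw [h7]
      exact Finset.sum_congr rfl fun g _ => by rw [Complex.mul_conj, Complex.normSq_eq_norm_sq]; push_cast; rfl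
    exact_mod_cast h8
  have hsplit : ∀ f : G → ℝ, (∀ g, χ g = 0 → f g = 0) → ∑ g : G, f g =
      ∑ g ∈ Finset.univ.filter (fun g : G => ‖χ g‖ = (d : ℝ)), f g + ∑ g ∈ R, f g := by
    intro f hf
    rw [← Finset.sum_filter_add_sum_filter_not Finset.univ (fun g : G => ‖χ g‖ = (d : ℝ)) f]
    congr 1
    symm
    apply Finset.sum_subset
    · intro g hg
      rw [Finset.mem_filter] at hg ⊢
      exact ⟨hg.1, hg.2.2⟩
    · intro g hg hg2
      rw [Finset.mem_filter] at hg
      apply hf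
      by_contra hne
      exact hg2 (Finset.mem_filter.mpr ⟨hg.1, hne, hg.2⟩)
  have hcard : Nat.card G = (Finset.univ.filter (fun g : G => ‖χ g‖ = (d : ℝ))).card + R.card + (Finset.univ.filter (fun g : G => χ g = 0)).card := by
    have h1 := Finset.card_filter_add_card_filter_not (s := (Finset.univ : Finset G)) (fun g : G => χ g = 0)
    have h2 : (Finset.univ.filter (fun g : G => ¬ χ g = 0)) = (Finset.univ.filter (fun g : G => ‖χ g‖ = (d : ℝ))) ∪ R := by
      ext g
      rw [Finset.mem_filter, Finset.mem_union, Finset.mem_filter, Finset.mem_filter]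
      constructor
      · rintro ⟨-, h⟩
        by_cases h3 : ‖χ g‖ = (d : ℝ)
        · exact Or.inl ⟨Finset.mem_univ _, h3⟩
        · exact Or.inr ⟨Finset.mem_univ _, h, h3⟩
      · rintro (⟨-, h⟩ | ⟨-, h, -⟩)
        · refine ⟨Finset.mem_univ _, fun h0 => ?_⟩
          rw [h0, norm_zero] at h
          have : (d : ℝ) ≠ 0 := by exact_mod_cast hdpos.ne'
          exact this h.symm
        · exact ⟨Finset.mem_univ _, h⟩
    have h3 : Disjoint (Finset.univ.filter (fun g : G => ‖χ g‖ = (d : ℝ))) R := by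
      rw [Finset.disjoint_left]
      intro g hg hgR
      exact (Finset.mem_filter.mp hgR).2.2 (Finset.mem_filter.mp hg).2
    rw [h2, Finset.card_union_of_disjoint h3, Finset.card_univ, ← Nat.card_eq_fintype_card] at h1
    omega
  have hZsum : ∑ g ∈ Finset.univ.filter (fun g : G => ‖χ g‖ = (d : ℝ)), ‖χ g‖ ^ 2 =
      (d : ℝ) ^ 2 * (Finset.univ.filter (fun g : G => ‖χ g‖ = (d : ℝ))).card := by
    rw [Finset.sum_congr rfl (g := fun _ => (d : ℝ) ^ 2) (fun g hg => by rw [(Finset.mem_filter.mp hg).2]), Finset.sum_const, nsmul_eq_mul, mul_comm]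
  have hmain : (d : ℝ) ^ 2 * (Finset.univ.filter (fun g : G => ‖χ g‖ = (d : ℝ))).card + ∑ g ∈ R, ‖χ g‖ ^ 2 = Nat.card G := by
    rw [← hZsum, ← hnorm]
    exact (hsplit (fun g => ‖χ g‖ ^ 2) (fun g hg => by rw [hg, norm_zero]; norm_num)).symm
  have hcardR : (Nat.card G : ℝ) = (Finset.univ.filter (fun g : G => ‖χ g‖ = (d : ℝ))).card + R.card + (Finset.univ.filter (fun g : G => χ g = 0)).card := by
    exact_mod_cast hcard
  have hd2 : 1 ≤ d ^ 2 := Nat.one_le_pow _ _ hdpos
  constructor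
  · -- Galois
    let ι := {g : G // χ g ≠ 0 ∧ ‖χ g‖ ≠ (d : ℝ)}
    let f : ι → Cyc (Nat.card G) := fun g => ⟨χ g.1, IsChar.mem_cyc hχc g.1 pow_card_eq_one'⟩
    obtain ⟨h1, -⟩ := card_le_sum_sq f (fun i => IsChar.isIntegral hχc i.1) (fun i h => i.2.1 (congrArg Subtype.val h)) (fun σ => by
      obtain ⟨m, hm, hσ⟩ := gal_actsAs _ σ
      have hm' : (Nat.card G).Coprime m := hm.symm
      have hgal : ∀ g : G, ((σ ⟨χ g, IsChar.mem_cyc hχc g pow_card_eq_one'⟩ : Cyc (Nat.card G)) : ℂ) = χ (g ^ m) := fun g =>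
        IsChar.gal hχc g pow_card_eq_one' hσ _ rfl
      have hiff : ∀ g : G, (χ (powCoprime hm' g) ≠ 0 ∧ ‖χ (powCoprime hm' g)‖ ≠ (d : ℝ)) ↔ (χ g ≠ 0 ∧ ‖χ g‖ ≠ (d : ℝ)) := by
        intro g
        have hpc : powCoprime hm' g = g ^ m := rfl
        rw [hpc]
        have e1 : χ (g ^ m) = 0 ↔ χ g = 0 := by
          rw [← hgal g]
          constructor
          · intro h
            have h2 : σ ⟨χ g, IsChar.mem_cyc hχc g pow_card_eq_one'⟩ = 0 := Subtype.ext h
            exact congrArg Subtype.val ((map_eq_zero_iff _ σ.injective).mp h2)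
          · intro h
            have h2 : (⟨χ g, IsChar.mem_cyc hχc g pow_card_eq_one'⟩ : Cyc (Nat.card G)) = 0 := Subtype.ext h
            rw [h2, map_zero]
            rfl
        have e2 : ‖χ (g ^ m)‖ = (d : ℝ) ↔ ‖χ g‖ = (d : ℝ) := by
          constructor
          · intro h
            obtain ⟨k, hk⟩ : ∃ k : ℕ, (g ^ m) ^ k = g := by
              have h2 : g ∈ Subgroup.zpowers (g ^ m) := by
                rw [mem_zpowers_pow_iff]
                exact (hm'.coprime_dvd_left (orderOf_dvd_natCard _)).symm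
              obtain ⟨k, hk⟩ := (mem_powers_iff_mem_zpowers.mpr h2)
              exact ⟨k, hk⟩
            have h3 := norm_pow_eq hχc hd1 h k
            rwa [hk] at h3
          · intro h
            exact norm_pow_eq hχc hd1 h m
        exact and_congr (not_iff_not.mpr e1) (not_iff_not.mpr e2)
      refine ⟨(powCoprime hm').subtypeEquiv (fun g => (hiff g).symm), fun i => ?_⟩
      apply Subtype.ext
      exact hgal i.1)
    have h2 : (R.card : ℝ) ≤ ∑ g ∈ R, ‖χ g‖ ^ 2 := by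
      have h3 : Fintype.card ι = R.card := by rw [Fintype.card_subtype]
      have h4 : ∑ i : ι, ‖((f i : Cyc (Nat.card G)) : ℂ)‖ ^ 2 = ∑ g ∈ R, ‖χ g‖ ^ 2 := by
        symm
        apply Finset.sum_subtype
        intro g
        rw [Finset.mem_filter]
        exact ⟨fun h => h.2, fun h => ⟨Finset.mem_univ _, h⟩⟩
      rw [h3, h4] at h1
      exact h1
    have h5 : ((d : ℝ) ^ 2 - 1) * (Finset.univ.filter (fun g : G => ‖χ g‖ = (d : ℝ))).card ≤ (Finset.univ.filter (fun g : G => χ g = 0)).card := by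
      linarith
    have h6 : (((d ^ 2 - 1) * (Finset.univ.filter (fun g : G => ‖χ g‖ = (d : ℝ))).card : ℕ) : ℝ) ≤ ((Finset.univ.filter (fun g : G => χ g = 0)).card : ℝ) := by
      rw [Nat.cast_mul, Nat.cast_sub hd2]
      push_cast
      exact h5
    exact_mod_cast h6
  · intro hv
    have h2 : (R.card : ℝ) = ∑ g ∈ R, ‖χ g‖ ^ 2 := by
      rw [Finset.sum_congr rfl (g := fun _ => (1 : ℝ)) (fun g hg => ?_), Finset.sum_const, nsmul_eq_mul, mul_one]
      obtain ⟨-, h3, h4⟩ := Finset.mem_filter.mp hg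
      rcases hv g with h | h | h
      · exact absurd (norm_eq_zero.mp h) h3
      · rw [h, one_pow]
      · exact absurd h h4
    have h5 : ((d : ℝ) ^ 2 - 1) * (Finset.univ.filter (fun g : G => ‖χ g‖ = (d : ℝ))).card = (Finset.univ.filter (fun g : G => χ g = 0)).card := by
      linarith
    have h6 : (((d ^ 2 - 1) * (Finset.univ.filter (fun g : G => ‖χ g‖ = (d : ℝ))).card : ℕ) : ℝ) = ((Finset.univ.filter (fun g : G => χ g = 0)).card : ℝ) := by
      rw [Nat.cast_mul, Nat.cast_sub hd2]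
      push_cast
      exact h5
    exact_mod_cast h6

end Cfsg.Agent.H3.Zeros
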