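import Mathlib

/-! Binary affine groups I: the basic moves (helper4, for S5753). -/

set_option autoImplicit false
set_option linter.unusedSectionVars false

namespace Cfsg.Agent.H4.Bin

/-- the binary condition for a group acting on an abelian group -/
def IsBin (H V : Type*) [AddCommGroup V] [Group H] [DistribMulAction H V] : Prop :=
  ∀ (X : Set V) (f : V → V), (0 : V) ∈ X → f 0 = 0 →
    (∀ x ∈ X, ∀ y ∈ X, ∃ h : H, h • (x - y) = f x - f y) → ∃ h : H, ∀ x ∈ X, h • x = f x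

section defs
variable (p : ℕ) (V : Type*) {H : Type*} [AddCommGroup V] [Module (ZMod p) V] [Group H]
  [DistribMulAction H V]

/-- `v ↦ v - k v` -/
def dd (k : H) : V →ₗ[ZMod p] V :=
  AddMonoidHom.toZModLinearMap p (AddMonoidHom.id V - DistribMulAction.toAddMonoidHom V k)

/-- fixed vectors -/
def fx (k : H) : Submodule (ZMod p) V := LinearMap.ker (dd p V k)

/-- commutator vectors -/
def bk (k : H) : Submodule (ZMod p) V := LinearMap.range (dd p V k)

/-- `k` is a non-trivial element with maximal fixed space -/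
def IsR (k : H) : Prop := k ≠ 1 ∧ ∀ l : H, l ≠ 1 → fx p V k ≤ fx p V l → fx p V l ≤ fx p V k

variable {p V}

lemma dd_apply (k : H) (v : V) : dd p V k v = v - k • v := rfl

lemma mem_fx {k : H} {v : V} : v ∈ fx p V k ↔ k • v = v := by
  rw [fx, LinearMap.mem_ker, dd_apply, sub_eq_zero]
  exact eq_comm

lemma mem_bk {k : H} {w : V} : w ∈ bk p V k ↔ ∃ v, v - k • v = w := by
  rw [bk, LinearMap.mem_range]
  rfl

lemma sub_mem_bk (k : H) (v : V) : v - k • v ∈ bk p V k := mem_bk.2 ⟨v, rfl⟩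

lemma mem_fx_conj {g k : H} {v : V} : v ∈ fx p V (g * k * g⁻¹) ↔ g⁻¹ • v ∈ fx p V k := by
  rw [mem_fx, mem_fx, mul_smul, mul_smul, eq_comm, ← inv_smul_eq_iff]
  exact eq_comm

lemma mem_bk_conj {g k : H} {v : V} : v ∈ bk p V (g * k * g⁻¹) ↔ g⁻¹ • v ∈ bk p V k := by
  rw [mem_bk, mem_bk]
  constructor
  · rintro ⟨w, rfl⟩
    refine ⟨g⁻¹ • w, ?_⟩
    rw [smul_sub, mul_smul, mul_smul, inv_smul_smul]
  · rintro ⟨w, hw⟩
    refine ⟨g • w, ?_⟩
    rw [mul_smul, mul_smul, inv_smul_smul, ← smul_sub, hw, smul_inv_smul]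

lemma smul_mem_bk_conj {g k : H} {v : V} (h : v ∈ bk p V k) : g • v ∈ bk p V (g * k * g⁻¹) := by
  rw [mem_bk_conj, inv_smul_smul]; exact h

lemma smul_mem_fx_conj {g k : H} {v : V} (h : v ∈ fx p V k) : g • v ∈ fx p V (g * k * g⁻¹) := by
  rw [mem_fx_conj, inv_smul_smul]; exact h

lemma mem_fx_mul {g k : H} {v : V} (hg : v ∈ fx p V g) (hk : v ∈ fx p V k) : v ∈ fx p V (g * k) := by
  rw [mem_fx] at *
  rw [mul_smul, hk, hg]

lemma mem_fx_inv {g : H} {v : V} (hg : v ∈ fx p V g) : v ∈ fx p V g⁻¹ := by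
  rw [mem_fx] at *
  rw [inv_smul_eq_iff, hg]

lemma smul_mem_bk_of_comm {g k : H} (h : g * k = k * g) {v : V} (hv : v ∈ bk p V k) :
    g • v ∈ bk p V k := by
  have := smul_mem_bk_conj (g := g) hv
  rwa [h, mul_inv_cancel_right] at this

lemma smul_mem_fx_of_comm {g k : H} (h : g * k = k * g) {v : V} (hv : v ∈ fx p V k) :
    g • v ∈ fx p V k := by
  have := smul_mem_fx_conj (g := g) hv
  rwa [h, mul_inv_cancel_right] at this

lemma fx_conj_le {g k l : H} (h : fx p V k ≤ fx p V l) :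
    fx p V (g * k * g⁻¹) ≤ fx p V (g * l * g⁻¹) := by
  intro v hv
  rw [mem_fx_conj] at *
  exact h hv

variable [FaithfulSMul H V]

lemma one_of_forall {k : H} (h : ∀ v : V, k • v = v) : k = 1 :=
  eq_of_smul_eq_smul (α := V) fun v => by rw [h, one_smul]

lemma exists_move {k : H} (h : k ≠ 1) : ∃ v : V, v - k • v ≠ 0 := by
  by_contra hc
  push Not at hc
  exact h (one_of_forall (V := V) fun v => (sub_eq_zero.1 (hc v)).symm)

lemma exists_bk_ne {k : H} (h : k ≠ 1) : ∃ w ∈ bk p V k, w ≠ 0 := by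
  obtain ⟨v, hv⟩ := exists_move (V := V) h
  exact ⟨_, sub_mem_bk k v, hv⟩

lemma one_of_fx_top {k : H} (h : fx p V k = ⊤) : k = 1 :=
  one_of_forall (V := V) fun v => mem_fx.1 (h ▸ Submodule.mem_top)

lemma isR_conj {k : H} (h : IsR p V k) (g : H) : IsR p V (g * k * g⁻¹) := by
  refine ⟨fun hc => h.1 ?_, fun l hl hle => ?_⟩
  · have : g * k = g := by rw [← mul_inv_eq_one]; exact hc
    exact mul_eq_left.1 this
  · have h1 : fx p V k ≤ fx p V (g⁻¹ * l * g⁻¹⁻¹) := by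
      have := fx_conj_le (g := g⁻¹) hle
      rwa [show g⁻¹ * (g * k * g⁻¹) * g⁻¹⁻¹ = k by group] at this
    have h2 := h.2 (g⁻¹ * l * g⁻¹⁻¹) (fun hc => hl (by
      have : l = g * (g⁻¹ * l * g⁻¹⁻¹) * g⁻¹ := by group
      rw [this, hc]; group)) h1
    have := fx_conj_le (g := g) h2
    rwa [show g * (g⁻¹ * l * g⁻¹⁻¹) * g⁻¹ = l by group] at this

lemma conj_ne_one {k g : H} (h : k ≠ 1) : g * k * g⁻¹ ≠ 1 := by
  intro hc
  have : g * k = g := by rw [← mul_inv_eq_one]; exact hc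
  exact h (mul_eq_left.1 this)

variable [Finite V] [Finite H]

lemma exists_isR {h : H} (hh : h ≠ 1) : ∃ k : H, IsR p V k ∧ fx p V h ≤ fx p V k := by
  classical
  have hfin : (Set.univ : Set (Submodule (ZMod p) V)).Finite := Set.toFinite _
  obtain ⟨k, ⟨hk1, hk2⟩, hmax⟩ := Set.exists_max_image {k : H | k ≠ 1 ∧ fx p V h ≤ fx p V k}
    (fun k => Nat.card (fx p V k)) (Set.toFinite _) ⟨h, hh, le_rfl⟩
  refine ⟨k, ⟨hk1, fun l hl hle => ?_⟩, hk2⟩
  have h1 := hmax l ⟨hl, hk2.trans hle⟩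
  have h2 : ((fx p V k : Set V)) = (fx p V l : Set V) := by
    apply Set.eq_of_subset_of_ncard_le hle _ (Set.toFinite _)
    exact h1
  intro v hv
  have : v ∈ (fx p V l : Set V) := hv
  rw [← h2] at this
  exact this

end defs

section moves
variable {p : ℕ} {V H : Type*} [AddCommGroup V] [Module (ZMod p) V] [Group H]
  [DistribMulAction H V]

lemma move1 (hb : IsBin H V) {R : Submodule (ZMod p) V} {l : H} (hl : R ≤ fx p V l) {v1 v2 : V}
    (h : ∃ g : H, g • (v1 - v2) = v1 - l • v2) :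
    ∃ g : H, R ≤ fx p V g ∧ g • v1 = v1 ∧ g • v2 = l • v2 := by
  classical
  obtain ⟨g0, hg0⟩ := h
  have hl' : ∀ r ∈ R, l • r = r := fun r hr => mem_fx.1 (hl hr)
  obtain ⟨g, hg⟩ := hb {x | x ∈ R ∨ x = v1 ∨ x = v2} (fun x => if x = v2 then l • v2 else x)
    (Or.inl R.zero_mem) (by
      split_ifs with h0
      · rw [← h0, smul_zero]
      · rfl) (by
      have hyp2 : ∀ y, y ∈ R ∨ y = v1 ∨ y = v2 → y ≠ v2 → ∃ h : H, h • (v2 - y) = l • v2 - y := by
        rintro y (hy | rfl | rfl) hne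
        · exact ⟨l, by rw [smul_sub, hl' y hy]⟩
        · refine ⟨g0, ?_⟩
          rw [← neg_sub, smul_neg, hg0, neg_sub]
        · exact absurd rfl hne
      intro x hx y hy
      split_ifs with h1 h2 h2
      · exact ⟨1, by rw [h1, h2]; simp⟩
      · rw [h1]; exact hyp2 y hy h2
      · obtain ⟨h, hh⟩ := hyp2 x hx h1
        refine ⟨h, ?_⟩
        rw [h2, ← neg_sub, smul_neg, hh, neg_sub]
      · exact ⟨1, one_smul _ _⟩)
  refine ⟨g, fun r hr => ?_, ?_, ?_⟩
  · rw [mem_fx, hg r (Or.inl hr)]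
    split_ifs with h1
    · rw [← h1, hl' r hr]
    · rfl
  · rw [hg v1 (Or.inr (Or.inl rfl))]
    split_ifs with h1
    · rw [h1, sub_self, smul_zero] at hg0
      rw [h1]
      exact (sub_eq_zero.1 hg0.symm).symm
    · rfl
  · rw [hg v2 (Or.inr (Or.inr rfl))]
    rw [if_pos rfl]

lemma swap (hb : IsBin H V) {R : Submodule (ZMod p) V} {l : H} (hl : R ≤ fx p V l) {y : V}
    (h : ∃ g : H, g • (y - l • y) = l • y - y) :
    ∃ g : H, R ≤ fx p V g ∧ g • y = l • y ∧ g • (l • y) = y := by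
  classical
  by_cases hy : l • y = y
  · exact ⟨l, hl, rfl, by rw [hy, hy]⟩
  obtain ⟨g0, hg0⟩ := h
  have hl' : ∀ r ∈ R, l • r = r := fun r hr => mem_fx.1 (hl hr)
  have hyR : ∀ r ∈ R, r ≠ y := fun r hr h => hy (h ▸ hl' r hr)
  have hlyR : ∀ r ∈ R, r ≠ l • y := fun r hr h => by
    have := hl' r hr
    rw [h] at this
    exact hy (smul_left_cancel l this)
  obtain ⟨g, hg⟩ := hb {x | x ∈ R ∨ x = y ∨ x = l • y}
    (fun x => if x = y then l • y else if x = l • y then y else x)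
    (Or.inl R.zero_mem) (by
      rw [if_neg (hyR 0 R.zero_mem), if_neg (hlyR 0 R.zero_mem)]) (by
      have h1 : ∀ r ∈ R, ∃ h : H, h • (r - y) = r - l • y := fun r hr =>
        ⟨l, by rw [smul_sub, hl' r hr]⟩
      have h2 : ∀ r ∈ R, ∃ h : H, h • (r - l • y) = r - y := fun r hr => by
        refine ⟨l⁻¹, ?_⟩
        rw [smul_sub, inv_smul_smul, inv_smul_eq_iff.2 (hl' r hr).symm]
      have hneg : ∀ a b : V, (∃ h : H, h • a = b) → ∃ h : H, h • (-a) = -b := by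
        rintro a b ⟨h, hh⟩
        exact ⟨h, by rw [smul_neg, hh]⟩
      rintro x hx z hz
      rcases hx with hx | rfl | rfl
      · rw [if_neg (hyR x hx), if_neg (hlyR x hx)]
        rcases hz with hz | rfl | rfl
        · rw [if_neg (hyR z hz), if_neg (hlyR z hz)]
          exact ⟨1, one_smul _ _⟩
        · rw [if_pos rfl]; exact h1 x hx
        · rw [if_neg hy, if_pos rfl]; exact h2 x hx
      · rw [if_pos rfl]
        rcases hz with hz | rfl | rfl
        · rw [if_neg (hyR z hz), if_neg (hlyR z hz)]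
          have := hneg _ _ (h1 z hz)
          rwa [neg_sub, neg_sub] at this
        · rw [if_pos rfl]; exact ⟨1, by simp⟩
        · rw [if_neg hy, if_pos rfl]; exact ⟨g0, hg0⟩
      · rw [if_neg hy, if_pos rfl]
        rcases hz with hz | rfl | rfl
        · rw [if_neg (hyR z hz), if_neg (hlyR z hz)]
          have := hneg _ _ (h2 z hz)
          rwa [neg_sub, neg_sub] at this
        · rw [if_pos rfl]
          have := hneg _ _ ⟨g0, hg0⟩
          rwa [neg_sub, neg_sub] at this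
        · rw [if_neg hy, if_pos rfl]; exact ⟨1, by simp⟩)
  refine ⟨g, fun r hr => ?_, ?_, ?_⟩
  · rw [mem_fx, hg r (Or.inl hr)]
    rw [if_neg (hyR r hr), if_neg (hlyR r hr)]
  · rw [hg y (Or.inr (Or.inl rfl))]
    rw [if_pos rfl]
  · rw [hg (l • y) (Or.inr (Or.inr rfl))]
    rw [if_neg hy, if_pos rfl]

/-- R1 -/
lemma r1 (hb : IsBin H V) {k : H} (hk : IsR p V k) {w z : V} (hw : w ∈ bk p V k) (hw0 : w ≠ 0)
    (h : ∃ g : H, g • z = z + w) : k • z = z + w := by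
  obtain ⟨y, hy⟩ := mem_bk.1 hw
  obtain ⟨g0, hg0⟩ := h
  obtain ⟨g, hg1, hg2, hg3⟩ := move1 hb (R := fx p V k) (l := k) le_rfl (v1 := z + y) (v2 := y)
    ⟨g0, by rw [add_sub_cancel_right, hg0, ← hy]; abel⟩
  have hg : g ≠ 1 := by
    rintro rfl
    rw [one_smul] at hg3
    apply hw0
    rw [← hy, ← hg3, sub_self]
  have h1 : z + y ∈ fx p V k := hk.2 g hg hg1 (mem_fx.2 hg2)
  rw [mem_fx, smul_add] at h1
  rw [← hy, ← sub_eq_zero]
  have h2 : k • z = z + y - k • y := by rw [← h1]; abel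
  rw [h2]; abel

variable [FaithfulSMul H V]

/-- R2 -/
lemma r2 (hb : IsBin H V) {k k' : H} (hk : IsR p V k) (hk' : IsR p V k') {w : V}
    (hw : w ∈ bk p V k) (hw' : w ∈ bk p V k') (hw0 : w ≠ 0) : k = k' := by
  have h1 : ∀ z, k • z = z + w ↔ k' • z = z + w := fun z =>
    ⟨fun h => r1 hb hk' hw' hw0 ⟨k, h⟩, fun h => r1 hb hk hw hw0 ⟨k', h⟩⟩
  obtain ⟨z0, hz0⟩ : ∃ z, k • z = z + w := by
    obtain ⟨v, hv⟩ := mem_bk.1 (neg_mem hw)
    refine ⟨v, ?_⟩
    have : w = k • v - v := by rw [← neg_neg w, ← hv, neg_sub]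
    rw [this]; abel
  have hz0' := (h1 z0).1 hz0
  by_contra hne
  have hl : k⁻¹ * k' ≠ 1 := fun h => hne (inv_mul_eq_one.1 h)
  have h2 : fx p V k ≤ fx p V (k⁻¹ * k') := by
    intro u hu
    have h3 : k • (z0 + u) = (z0 + u) + w := by
      rw [smul_add, hz0, mem_fx.1 hu]; abel
    have h4 := (h1 _).1 h3
    rw [smul_add, hz0'] at h4
    have h5 : k' • u = u := by
      have : z0 + w + k' • u = z0 + w + u := by rw [h4]; abel
      exact add_left_cancel this
    exact mem_fx_mul (mem_fx_inv hu) (mem_fx.2 h5)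
  have h3 : z0 ∈ fx p V (k⁻¹ * k') := by
    rw [mem_fx, mul_smul, hz0', ← hz0, inv_smul_smul]
  have h4 := hk.2 _ hl h2 h3
  rw [mem_fx, hz0] at h4
  exact hw0 (add_eq_left.1 h4)

lemma fx_inv (k : H) : fx p V k⁻¹ = fx p V k := by
  ext v
  exact ⟨fun h => by simpa using mem_fx_inv h, mem_fx_inv⟩

lemma bk_inv (k : H) : bk p V k⁻¹ = bk p V k := by
  have : ∀ k : H, bk p V k ≤ bk p V k⁻¹ := by
    intro k w hw
    obtain ⟨v, rfl⟩ := mem_bk.1 hw
    rw [mem_bk]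
    refine ⟨-(k • v), ?_⟩
    rw [smul_neg, inv_smul_smul]; abel
  refine le_antisymm ?_ (this k)
  have := this k⁻¹
  rwa [inv_inv] at this

lemma isR_inv {k : H} (h : IsR p V k) : IsR p V k⁻¹ := by
  refine ⟨inv_ne_one.2 h.1, fun l hl => ?_⟩
  rw [fx_inv]
  exact h.2 l hl

/-- R3 -/
lemma r3 (hb : IsBin H V) {k : H} (hk : IsR p V k) : k * k = 1 := by
  obtain ⟨w, hw, hw0⟩ := exists_bk_ne (p := p) (V := V) hk.1
  have := r2 hb hk (isR_inv hk) hw (by rw [bk_inv]; exact hw) hw0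
  nth_rw 2 [this]
  exact mul_inv_cancel k

lemma r3' (hb : IsBin H V) {k : H} (hk : IsR p V k) : k⁻¹ = k :=
  inv_eq_of_mul_eq_one_left (r3 hb hk)

lemma neg_of_bk (hb : IsBin H V) {k : H} (hk : IsR p V k) {w : V} (hw : w ∈ bk p V k) :
    k • w = -w := by
  obtain ⟨v, rfl⟩ := mem_bk.1 hw
  rw [smul_sub, ← mul_smul, r3 hb hk, one_smul]; abel

/-- R5 -/
lemma r5 (hb : IsBin H V) {k k' : H} (hk : IsR p V k) (hk' : IsR p V k') (hne : k ≠ k') {z : V}
    (hz : (k * k') • z = z) : z ∈ fx p V k ∧ z ∈ fx p V k' := by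
  have h1 : k' • z = k • z := by
    rw [mul_smul] at hz
    rw [← inv_smul_eq_iff.2 hz.symm, r3' hb hk]
  have h2 : z - k • z = 0 := by
    by_contra h0
    exact hne (r2 hb hk hk' (sub_mem_bk k z) (h1 ▸ sub_mem_bk k' z) h0)
  have h3 : k • z = z := (sub_eq_zero.1 h2).symm
  exact ⟨mem_fx.2 h3, mem_fx.2 (h1.trans h3)⟩

/-- R6 -/
lemma r6 (hb : IsBin H V) {k g : H} (hk : IsR p V k) {w : V} (hw : w ∈ bk p V k) (hw0 : w ≠ 0)
    (hg : g • w = w) : g * k = k * g := by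
  have h1 : w ∈ bk p V (g * k * g⁻¹) := by
    rw [mem_bk_conj, inv_smul_eq_iff.2 hg.symm]; exact hw
  have := r2 hb (isR_conj hk g) hk h1 hw hw0
  exact mul_inv_eq_iff_eq_mul.1 this

/-- R7 -/
lemma r7 (hb : IsBin H V) {k k' : H} (hk : IsR p V k) (hk' : IsR p V k') (hne : k ≠ k')
    (hc : k * k' = k' * k) : bk p V k ≤ fx p V k' := by
  intro w hw
  by_contra hcon
  have h0 : w - k' • w ≠ 0 := fun h => hcon (mem_fx.2 (sub_eq_zero.1 h).symm)
  exact hne (r2 hb hk hk' (sub_mem hw (smul_mem_bk_of_comm hc.symm hw)) (sub_mem_bk k' w) h0)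

end moves

end Cfsg.Agent.H4.Bin
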