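import Cfsg.Agent.H4_Bin9

/-! Binary affine groups X: reduction from primitive groups (helper4, for S5753). -/

set_option autoImplicit false
set_option linter.unusedSectionVars false

namespace Cfsg.Agent.H4.Bin

open Module MulAction

theorem reduce_core {G Ω V : Type*} [Group G] [Finite G] [MulAction G Ω] [FaithfulSMul G Ω] [Fintype Ω]
    [AddCommGroup V] [Finite V] [Nontrivial V] {p : ℕ} [Fact p.Prime] [Module (ZMod p) V]
    (hpt : IsPretransitive G Ω) (ω : Ω) [DistribMulAction (stabilizer G ω) V]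
    [FaithfulSMul (stabilizer G ω) V]
    (N : Subgroup G) (hcomm : ∀ a ∈ N, ∀ b ∈ N, a * b = b * a)
    (t : V → G) (tinj : ∀ u v, t u = t v → u = v) (tN : ∀ v, t v ∈ N)
    (tsurj : ∀ n ∈ N, ∃ v, t v = n) (tadd : ∀ u v, t (u + v) = t u * t v)
    (tzero : t 0 = 1) (tneg : ∀ u, t (-u) = (t u)⁻¹) (tsub : ∀ u v, t (u - v) = t u * (t v)⁻¹)
    (tsmul : ∀ (h : stabilizer G ω) (v : V), t (h • v) = (h : G) * t v * (h : G)⁻¹)
    (hst : ∀ h : stabilizer G ω, (h : G) • ω = ω)
    (tpt : ∀ (h : stabilizer G ω) (v : V), t (h • v) • ω = (h : G) • (t v • ω))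
    (tω : ∀ u v, t u • ω = t v • ω → u = v)
    (htr' : ∀ x y : Ω, ∃ n ∈ N, n • x = y)
    (hirr : ∀ W : Subgroup G, W ≤ N → (∀ h ∈ stabilizer G ω, ∀ w ∈ W, h * w * h⁻¹ ∈ W) →
      W = ⊥ ∨ W = N)
    (hbin : ∀ (n : ℕ) (I J : Fin n → Ω), 2 ≤ n →
      (∀ i j : Fin n, i ≠ j → ∃ g : G, g • I i = J i ∧ g • I j = J j) → ∃ g : G, ∀ i, g • I i = J i) :
    ((Fintype.card Ω).Prime ∧ ∀ ω : Ω, Nat.card ↥(MulAction.stabilizer G ω) ≤ 2) ∨
    (∃ (F E : Type) (_ : Field F) (_ : Fintype F) (_ : Field E) (_ : Fintype E) (_ : Algebra F E) (e : Ω ≃ E),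
        Module.finrank F E = 2 ∧
        ∀ σ : Equiv.Perm Ω, σ ∈ (MulAction.toPermHom G Ω).range ↔
          ∃ (a b : E) (φ : E ≃ₐ[F] E), Algebra.norm F a = 1 ∧ ∀ ω : Ω, e (σ ω) = a * φ (e ω) + b) := by
  classical
  have hp : p.Prime := Fact.out
  have hIrr : Irr p (V) (stabilizer G ω) := by
    intro W hW
    let W' : Subgroup G :=
      { carrier := {g | ∃ v : V, v ∈ W ∧ t v = g}
        mul_mem' := by
          rintro _ _ ⟨u, hu, rfl⟩ ⟨v, hv, rfl⟩
          exact ⟨u + v, add_mem hu hv, tadd u v⟩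
        one_mem' := ⟨0, W.zero_mem, tzero⟩
        inv_mem' := by
          rintro _ ⟨u, hu, rfl⟩
          exact ⟨-u, neg_mem hu, tneg u⟩ }
    have hW'mem : ∀ g, g ∈ W' ↔ ∃ v : V, v ∈ W ∧ t v = g := fun g => Iff.rfl
    rcases hirr W' (by
      rintro _ ⟨u, hu, rfl⟩
      exact tN u) (by
      rintro h hh _ ⟨u, hu, rfl⟩
      exact ⟨(⟨h, hh⟩ : stabilizer G ω) • u, hW _ u hu, tsmul _ _⟩) with h | h
    · left
      refine (Submodule.eq_bot_iff W).2 fun v hv => ?_
      have h1 : t v ∈ W' := ⟨v, hv, rfl⟩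
      rw [h, Subgroup.mem_bot] at h1
      exact tinj _ _ (by rw [h1, tzero])
    · right
      refine Submodule.eq_top_iff'.2 fun v => ?_
      have h1 : t v ∈ W' := by rw [h]; exact tN v
      obtain ⟨u, hu, huv⟩ := (hW'mem _).1 h1
      rw [← tinj _ _ huv]
      exact hu
  have hBin : IsBin (stabilizer G ω) (V) := by
    intro X f h0 hf0 hf
    haveI : Nonempty X := ⟨⟨0, h0⟩⟩
    let e := Finite.equivFin (X × Bool)
    have hn : 2 ≤ Nat.card (X × Bool) := by
      rw [Nat.card_prod]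
      have h1 : 0 < Nat.card X := Nat.card_pos
      have h2 : Nat.card Bool = 2 := by rw [Nat.card_eq_fintype_card, Fintype.card_bool]
      rw [h2]; omega
    obtain ⟨g, hg⟩ := hbin (Nat.card (X × Bool))
      (fun i => t ((e.symm i).1 : V) • ω) (fun i => t (f ((e.symm i).1 : V)) • ω)
      hn (by
        intro i j _
        obtain ⟨h, hh⟩ := hf _ (e.symm i).1.2 _ (e.symm j).1.2
        set x : V := ((e.symm i).1 : V) with hx
        set y : V := ((e.symm j).1 : V) with hy
        refine ⟨t (f y) * (h : G) * (t y)⁻¹, ?_, ?_⟩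
        · show (t (f y) * (h : G) * (t y)⁻¹) • (t x • ω) = t (f x) • ω
          rw [← smul_smul, ← smul_smul, smul_smul (t y)⁻¹ (t x)]
          have h1 : (t y)⁻¹ * t x = t (x - y) := by
            rw [tsub, hcomm _ (inv_mem (tN y)) _ (tN x)]
          rw [h1, ← tpt, hh, smul_smul, ← tadd]
          congr 2
          abel
        · show (t (f y) * (h : G) * (t y)⁻¹) • (t y • ω) = t (f y) • ω
          rw [← smul_smul, ← smul_smul, inv_smul_smul, hst])
    have hg' : ∀ x ∈ X, g • (t x • ω) = t (f x) • ω := by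
      intro x hx
      have := hg (e (⟨x, hx⟩, true))
      simp only [Equiv.symm_apply_apply] at this
      exact this
    have hgω : g • ω = ω := by
      have := hg' 0 h0
      rwa [hf0, tzero, one_smul] at this
    refine ⟨⟨g, hgω⟩, fun x hx => ?_⟩
    apply tω
    rw [tpt]
    exact hg' x hx
  -- apply the main theorem
  have hcardΩ : Nat.card (V) = Nat.card Ω := by
    apply Nat.card_eq_of_bijective (fun v => t v • ω)
    constructor
    · intro u v h
      exact tω u v h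
    · intro x
      obtain ⟨n, hn, rfl⟩ := htr' ω x
      obtain ⟨v, rfl⟩ := tsurj n hn
      exact ⟨v, rfl⟩
  rcases main2 p (V) (stabilizer G ω) hBin hIrr with ⟨h1, h2⟩ |
    ⟨F, E, iF, fF, iE, fE, aF, e0, hfr, hiff⟩
  · left
    constructor
    · haveI hmf : Module.Finite (ZMod p) V := inferInstance
      rw [← Nat.card_eq_fintype_card, ← hcardΩ,
        Module.natCard_eq_pow_finrank (K := ZMod p) (V := V), h1, pow_one, Nat.card_zmod]
      exact hp
    · intro ω'
      have h3 : (orbitRel G Ω).r ω' ω := (IsPretransitive.exists_smul_eq (M := G) ω ω')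
      rw [Nat.card_congr (stabilizerEquivStabilizerOfOrbitRel h3).toEquiv]
      exact h2
  · right
    let eΩ : V ≃ Ω := Equiv.ofBijective (fun v => t v • ω) (by
      constructor
      · intro u v h
        exact tω u v h
      · intro x
        obtain ⟨n, hn, rfl⟩ := htr' ω x
        obtain ⟨v, rfl⟩ := tsurj n hn
        exact ⟨v, rfl⟩)
    have heΩ : ∀ v, eΩ v = t v • ω := fun v => rfl
    let e : Ω ≃ E := eΩ.symm.trans e0.toEquiv
    have he : ∀ v, e (t v • ω) = e0 v := by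
      intro v
      show e0 (eΩ.symm (t v • ω)) = e0 v
      rw [← heΩ, Equiv.symm_apply_apply]
    have hcov : ∀ x : Ω, ∃ v, t v • ω = x := fun x => ⟨eΩ.symm x, by rw [← heΩ, Equiv.apply_symm_apply]⟩
    refine ⟨F, E, iF, fF, iE, fE, aF, e, hfr, fun σ => ?_⟩
    constructor
    · rintro ⟨g, rfl⟩
      obtain ⟨n, hn⟩ := hcov (g • ω)
      have hh : ((t n)⁻¹ * g) • ω = ω := by rw [mul_smul, ← hn, inv_smul_smul]
      obtain ⟨a, φ, ha, hφ⟩ := (hiff (fun v => (⟨(t n)⁻¹ * g, hh⟩ : stabilizer G ω) • v)).1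
        ⟨_, fun v => rfl⟩
      refine ⟨a, e0 n, φ, ha, fun x => ?_⟩
      obtain ⟨v, rfl⟩ := hcov x
      rw [he, ← hφ v, ← map_add, ← he]
      congr 1
      show g • (t v • ω) = _
      rw [add_comm, tadd, mul_smul, tpt]
      show g • (t v • ω) = t n • ((t n)⁻¹ * g) • (t v • ω)
      rw [smul_smul (t n), mul_inv_cancel_left]
    · rintro ⟨a, b, φ, ha, hσ⟩
      obtain ⟨h, hh⟩ := (hiff (fun v => e0.symm (a * φ (e0 v)))).2
        ⟨a, φ, ha, fun v => by rw [AddEquiv.apply_symm_apply]⟩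
      refine ⟨t (e0.symm b) * (h : G), ?_⟩
      ext x
      apply e.injective
      obtain ⟨v, rfl⟩ := hcov x
      rw [hσ, he]
      show e ((t (e0.symm b) * (h : G)) • (t v • ω)) = _
      rw [mul_smul, ← tpt, smul_smul, ← tadd, he, map_add, hh, AddEquiv.apply_symm_apply,
        AddEquiv.apply_symm_apply, add_comm]

theorem reduce {G Ω V : Type*} [Group G] [Finite G] [MulAction G Ω] [FaithfulSMul G Ω] [Fintype Ω]
    [AddCommGroup V]
    (hprim : MulAction.IsPreprimitive G Ω)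
    (N : Subgroup G) (hN : N.Normal) (hN1 : N ≠ ⊥) (hcomm : ∀ a ∈ N, ∀ b ∈ N, a * b = b * a)
    (t : V → G) (tinj : ∀ u v, t u = t v → u = v) (tN : ∀ v, t v ∈ N)
    (tsurj : ∀ n ∈ N, ∃ v, t v = n) (tadd : ∀ u v, t (u + v) = t u * t v)
    (hbin : ∀ (n : ℕ) (I J : Fin n → Ω), 2 ≤ n →
      (∀ i j : Fin n, i ≠ j → ∃ g : G, g • I i = J i ∧ g • I j = J j) → ∃ g : G, ∀ i, g • I i = J i) :
    ((Fintype.card Ω).Prime ∧ ∀ ω : Ω, Nat.card ↥(MulAction.stabilizer G ω) ≤ 2) ∨
    (∃ (F E : Type) (_ : Field F) (_ : Fintype F) (_ : Field E) (_ : Fintype E) (_ : Algebra F E) (e : Ω ≃ E),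
        Module.finrank F E = 2 ∧
        ∀ σ : Equiv.Perm Ω, σ ∈ (MulAction.toPermHom G Ω).range ↔
          ∃ (a b : E) (φ : E ≃ₐ[F] E), Algebra.norm F a = 1 ∧ ∀ ω : Ω, e (σ ω) = a * φ (e ω) + b) := by
  classical
  haveI := hprim
  have htr : IsPretransitive N Ω := by
    apply IsQuasiPreprimitive.isPretransitive_of_normal (G := G)
    intro h
    apply hN1
    rw [eq_bot_iff]
    intro m hm
    rw [Subgroup.mem_bot]
    apply FaithfulSMul.eq_of_smul_eq_smul (α := Ω)
    intro ω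
    have h1 : ω ∈ fixedPoints N Ω := by rw [h]; trivial
    have h2 := h1 ⟨m, hm⟩
    rw [one_smul]
    exact h2
  have htr' : ∀ x y : Ω, ∃ n ∈ N, n • x = y := by
    intro x y
    obtain ⟨⟨n, hn⟩, h⟩ := htr.exists_smul_eq x y
    exact ⟨n, hn, h⟩
  have hreg : ∀ n ∈ N, ∀ ω : Ω, n • ω = ω → n = 1 := by
    intro m hm ω hω
    apply FaithfulSMul.eq_of_smul_eq_smul (α := Ω)
    intro ω'
    obtain ⟨n, hn, rfl⟩ := htr' ω ω'
    rw [one_smul, smul_smul, hcomm m hm n hn, ← smul_smul, hω]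
  obtain ⟨n0, hn0, hn01⟩ : ∃ n ∈ N, n ≠ 1 := by
    by_contra hcon
    push Not at hcon
    exact hN1 (eq_bot_iff.2 fun n hn => Subgroup.mem_bot.2 (hcon n hn))
  obtain ⟨ω, hω⟩ : ∃ ω : Ω, n0 • ω ≠ ω := by
    by_contra hcon
    push Not at hcon
    exact hn01 (FaithfulSMul.eq_of_smul_eq_smul (α := Ω) fun ω => by rw [hcon, one_smul])
  haveI hΩnt : Nontrivial Ω := ⟨⟨_, _, hω⟩⟩
  have hmax : IsCoatom (stabilizer G ω) := IsPreprimitive.isCoatom_stabilizer_of_isPreprimitive G ω
  -- irreducibility for subgroups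
  have hirr : ∀ W : Subgroup G, W ≤ N → (∀ h ∈ stabilizer G ω, ∀ w ∈ W, h * w * h⁻¹ ∈ W) →
      W = ⊥ ∨ W = N := by
    intro W hWN hW
    let K : Subgroup G :=
      { carrier := {g | ∃ w ∈ W, ∃ h ∈ stabilizer G ω, g = w * h}
        mul_mem' := by
          rintro _ _ ⟨w, hw, h, hh, rfl⟩ ⟨w', hw', h', hh', rfl⟩
          refine ⟨w * (h * w' * h⁻¹), mul_mem hw (hW h hh w' hw'), h * h', mul_mem hh hh', ?_⟩
          group
        one_mem' := ⟨1, one_mem _, 1, one_mem _, by group⟩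
        inv_mem' := by
          rintro _ ⟨w, hw, h, hh, rfl⟩
          refine ⟨h⁻¹ * w⁻¹ * h, ?_, h⁻¹, inv_mem hh, by group⟩
          have := hW h⁻¹ (inv_mem hh) w⁻¹ (inv_mem hw)
          rwa [inv_inv] at this }
    have hKmem : ∀ g, g ∈ K ↔ ∃ w ∈ W, ∃ h ∈ stabilizer G ω, g = w * h := fun g => Iff.rfl
    have hle : stabilizer G ω ≤ K := fun h hh => ⟨1, one_mem _, h, hh, by group⟩
    rcases hle.eq_or_lt with h | h
    · left
      rw [eq_bot_iff]
      intro w hw
      have h1 : w ∈ K := ⟨w, hw, 1, one_mem _, by group⟩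
      rw [← h, mem_stabilizer_iff] at h1
      exact Subgroup.mem_bot.2 (hreg w (hWN hw) ω h1)
    · right
      have h1 := hmax.2 K h
      refine le_antisymm hWN fun n hn => ?_
      have h2 : n ∈ K := by rw [h1]; trivial
      obtain ⟨w, hw, h, hh, hnwh⟩ := h2
      have h3 : h = w⁻¹ * n := by rw [hnwh]; group
      have h4 : h ∈ N := by rw [h3]; exact mul_mem (inv_mem (hWN hw)) hn
      have h5 := hreg h h4 ω hh
      rw [hnwh, h5, mul_one]; exact hw
  have tzero : t 0 = 1 := by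
    have := tadd 0 0
    rw [add_zero] at this
    exact (left_eq_mul.1 this)
  have tneg : ∀ u, t (-u) = (t u)⁻¹ := fun u => by
    rw [eq_inv_iff_mul_eq_one, ← tadd, neg_add_cancel, tzero]
  have tsub : ∀ u v, t (u - v) = t u * (t v)⁻¹ := fun u v => by
    rw [sub_eq_add_neg, tadd, tneg]
  have hex : ∀ (h : stabilizer G ω) (v : V), ∃ w, t w = (h : G) * t v * (h : G)⁻¹ :=
    fun h v => tsurj _ (hN.conj_mem _ (tN v) _)
  choose sm hsm using hex
  -- the action
  letI act : DistribMulAction (stabilizer G ω) V :=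
    { smul := sm
      one_smul := by
        intro v
        apply tinj
        show t (sm 1 v) = t v
        rw [hsm, Subgroup.coe_one]; group
      mul_smul := by
        intro g h v
        apply tinj
        show t (sm (g * h) v) = t (sm g (sm h v))
        rw [hsm, hsm, hsm, Subgroup.coe_mul]; group
      smul_zero := by
        intro g
        apply tinj
        show t (sm g 0) = t 0
        rw [hsm, tzero]; group
      smul_add := by
        intro g u v
        apply tinj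
        show t (sm g (u + v)) = t (sm g u + sm g v)
        rw [tadd, hsm, hsm, hsm, tadd]; group }
  have tsmul : ∀ (h : stabilizer G ω) (v : V), t (h • v) = (h : G) * t v * (h : G)⁻¹ :=
    fun h v => hsm h v
  have hst : ∀ h : stabilizer G ω, (h : G) • ω = ω := fun h => h.2
  have tpt : ∀ (h : stabilizer G ω) (v), t (h • v) • ω = (h : G) • (t v • ω) := by
    intro h v
    rw [tsmul, mul_smul, mul_smul, inv_smul_eq_iff.2 (hst h).symm]
  have tω : ∀ u v, t u • ω = t v • ω → u = v := by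
    intro u v h
    have h1 : t (-v + u) • ω = ω := by
      rw [tadd, tneg, mul_smul, h, inv_smul_smul]
    have h2 := hreg _ (tN _) ω h1
    have h3 : -v + u = 0 := tinj _ _ (by rw [h2, tzero])
    exact (neg_add_eq_zero.1 h3).symm
  haveI : Finite V := Finite.of_injective t tinj
  haveI : FaithfulSMul (stabilizer G ω) (V) := by
    refine ⟨fun {g h} hgh => ?_⟩
    apply Subtype.ext
    apply FaithfulSMul.eq_of_smul_eq_smul (α := Ω)
    intro x
    obtain ⟨n, hn, rfl⟩ := htr' ω x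
    obtain ⟨v, rfl⟩ := tsurj n hn
    rw [← tpt, ← tpt, hgh]
  -- the prime
  haveI hVnt : Nontrivial (V) := by
    obtain ⟨v, hv⟩ := tsurj n0 hn0
    refine ⟨⟨v, 0, fun h => hn01 ?_⟩⟩
    rw [← hv, h, tzero]
  have hcardN : 1 < Nat.card N := by
    have : Nat.card V = Nat.card N := Nat.card_eq_of_bijective (fun v => (⟨t v, tN v⟩ : N))
      ⟨fun u v h => tinj u v (congrArg Subtype.val h), fun n => by
        obtain ⟨v, hv⟩ := tsurj n n.2
        exact ⟨v, Subtype.ext hv⟩⟩
    rw [← this]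
    exact Finite.one_lt_card_iff_nontrivial.2 hVnt
  obtain ⟨p, hp, hpN⟩ := Nat.exists_prime_and_dvd hcardN.ne'
  haveI : Fact p.Prime := ⟨hp⟩
  have hexp : ∀ n ∈ N, n ^ p = 1 := by
    let W : Subgroup G :=
      { carrier := {n | n ∈ N ∧ n ^ p = 1}
        mul_mem' := by
          rintro a b ⟨ha, ha1⟩ ⟨hb, hb1⟩
          refine ⟨mul_mem ha hb, ?_⟩
          have hc : Commute a b := hcomm a ha b hb
          rw [hc.mul_pow, ha1, hb1, one_mul]
        one_mem' := ⟨one_mem _, one_pow _⟩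
        inv_mem' := by
          rintro a ⟨ha, ha1⟩
          refine ⟨inv_mem ha, ?_⟩
          rw [inv_pow, ha1, inv_one] }
    have hWmem : ∀ n, n ∈ W ↔ n ∈ N ∧ n ^ p = 1 := fun n => Iff.rfl
    rcases hirr W (fun n hn => ((hWmem n).1 hn).1) (by
      intro h _ w hw
      obtain ⟨h1, h2⟩ := (hWmem w).1 hw
      refine (hWmem _).2 ⟨hN.conj_mem _ h1 _, ?_⟩
      rw [conj_pow, h2]; group) with h | h
    · exfalso
      obtain ⟨x, hx⟩ := exists_prime_orderOf_dvd_card' p hpN
      have h1 : (x : G) ∈ W := (hWmem _).2 ⟨x.2, by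
        have h3 := pow_orderOf_eq_one x
        rw [hx] at h3
        exact congrArg Subtype.val h3⟩
      rw [h, Subgroup.mem_bot] at h1
      have h2 : x = 1 := Subtype.ext h1
      rw [h2, orderOf_one] at hx
      exact hp.one_lt.ne hx
    · intro n hn
      rw [← h] at hn
      exact ((hWmem n).1 hn).2
  letI : Module (ZMod p) (V) := AddCommGroup.zmodModule (n := p) (by
    intro v
    apply tinj
    have h1 : ∀ m : ℕ, t (m • v) = t v ^ m := by
      intro m
      induction m with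
      | zero => rw [zero_smul, pow_zero, tzero]
      | succ m ih => rw [succ_nsmul, tadd, ih, pow_succ]
    rw [h1, hexp _ (tN v), tzero])
  exact reduce_core (p := p) hprim.toIsPretransitive ω N hcomm t tinj tN tsurj tadd tzero tneg tsub tsmul hst
    tpt tω htr' hirr hbin

end Cfsg.Agent.H4.Bin
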