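import Cfsg.Agent.H4_Bin1

/-! Binary affine groups II: pairs of reflections (helper4, for S5753). -/

set_option autoImplicit false
set_option linter.unusedSectionVars false

namespace Cfsg.Agent.H4.Bin

open Module

variable {p : ℕ} [hp : Fact p.Prime] {V H : Type*} [AddCommGroup V] [Module (ZMod p) V]
  [Group H] [DistribMulAction H V] [FaithfulSMul H V] [Finite V] [Finite H]

omit [FaithfulSMul H V] [Finite H] in
variable (p V) in
lemma dim_add (k : H) : finrank (ZMod p) (bk p V k) + finrank (ZMod p) (fx p V k)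
    = finrank (ZMod p) V :=
  LinearMap.finrank_range_add_finrank_ker (dd p V k)

omit [Group H] [DistribMulAction H V] [FaithfulSMul H V] [Finite H] [Finite V] in
variable (p) in
lemma p_smul (v : V) : p • v = 0 := by
  rw [← Nat.cast_smul_eq_nsmul (ZMod p), CharP.cast_eq_zero, zero_smul]

omit [Finite V] in
variable (p) in
lemma odd_two (h : p ≠ 2) {x : V} (hx : x + x = 0) : x = 0 := by
  have h1 : addOrderOf x ∣ 2 := addOrderOf_dvd_of_nsmul_eq_zero (by rw [two_nsmul]; exact hx)
  have h2 : addOrderOf x ∣ p := addOrderOf_dvd_of_nsmul_eq_zero (p_smul p x)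
  have h3 : Nat.Coprime 2 p := (Nat.coprime_primes Nat.prime_two hp.out).2 (Ne.symm h)
  have h4 := Nat.eq_one_of_dvd_coprimes h3 h1 h2
  exact AddMonoid.addOrderOf_eq_one_iff.1 h4

omit [Finite V] in
variable (p) in
lemma two_add (h : p = 2) (x : V) : x + x = 0 := by
  have := p_smul p x
  rwa [h, two_nsmul] at this

omit [Finite V] in
variable (p) in
lemma two_neg (h : p = 2) (x : V) : -x = x := by
  rw [neg_eq_iff_add_eq_zero]; exact two_add p h x

/-- no elements of order `p` for `p` odd -/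
lemma no_p (hb : IsBin H V) (h2 : p ≠ 2) {u : H} (hu : u ^ p = 1) : u = 1 := by
  by_contra hu1
  set D : Module.End (ZMod p) V := dd p V u with hD
  have hDne : D ≠ 0 := by
    intro h
    obtain ⟨v, hv⟩ := exists_move (V := V) hu1
    apply hv
    have := congrArg (fun f : Module.End (ZMod p) V => f v) h
    exact this
  have hnt : Nontrivial V := by
    obtain ⟨v, hv⟩ := exists_move (V := V) hu1
    exact ⟨⟨_, _, hv⟩⟩
  set A : Module.End (ZMod p) V :=
    AddMonoidHom.toZModLinearMap p (DistribMulAction.toAddMonoidHom V u) with hA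
  have hA1 : ∀ v, A v = u • v := fun v => rfl
  have hDA : D = 1 - A := rfl
  have hAp : ∀ n : ℕ, ∀ v, (A ^ n) v = u ^ n • v := by
    intro n
    induction n with
    | zero => intro v; simp
    | succ n ih => intro v; rw [pow_succ, Module.End.mul_apply, ih, hA1, pow_succ, mul_smul]
  have hDp : D ^ p = 0 := by
    haveI : CharP (Module.End (ZMod p) V) p :=
      charP_of_injective_algebraMap (algebraMap (ZMod p) (Module.End (ZMod p) V)).injective p
    rw [hDA, sub_pow_char_of_commute p (Commute.one_left A)]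
    ext v
    rw [LinearMap.sub_apply, hAp, hu, one_pow, one_smul]
    simp
  classical
  have hex : ∃ n, D ^ n = 0 := ⟨p, hDp⟩
  set n := Nat.find hex with hn
  have hn0 : D ^ n = 0 := Nat.find_spec hex
  have hn2 : 2 ≤ n := by
    by_contra hlt
    have : n = 0 ∨ n = 1 := by omega
    rcases this with h | h
    · rw [h, pow_zero] at hn0
      exact one_ne_zero hn0
    · rw [h, pow_one] at hn0
      exact hDne hn0
  have hn1 : D ^ (n - 1) ≠ 0 := Nat.find_min hex (by omega)
  obtain ⟨v, hv⟩ : ∃ v, (D ^ (n - 1)) v ≠ 0 := by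
    by_contra hc
    push Not at hc
    exact hn1 (LinearMap.ext hc)
  set y := (D ^ (n - 2)) v with hy
  have hw : y - u • y ≠ 0 := by
    have : D y = (D ^ (n - 1)) v := by
      rw [hy, ← Module.End.mul_apply, ← pow_succ', show n - 2 + 1 = n - 1 by omega]
    have h3 : D y = y - u • y := rfl
    rw [← h3, this]; exact hv
  have huw : u • (y - u • y) = y - u • y := by
    have : D (D y) = (D ^ n) v := by
      rw [hy, ← Module.End.mul_apply, ← Module.End.mul_apply, mul_assoc, ← pow_succ', ← pow_succ',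
        show n - 2 + 1 + 1 = n by omega]
    rw [hn0, LinearMap.zero_apply] at this
    have h3 : D (D y) = (y - u • y) - u • (y - u • y) := rfl
    rw [h3, sub_eq_zero] at this
    exact this.symm
  obtain ⟨g, hg1, hg2, hg3⟩ := move1 hb (R := fx p V u) (l := u) le_rfl (v1 := y + y) (v2 := y)
    ⟨u⁻¹, by
      rw [inv_smul_eq_iff, add_sub_cancel_right, add_sub_assoc, smul_add, huw]; abel⟩
  rw [smul_add, hg3] at hg2
  apply hw
  apply odd_two p h2
  have : y - u • y + (y - u • y) = (y + y) - (u • y + u • y) := by abel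
  rw [this, hg2, sub_self]

lemma cop_odd (hb : IsBin H V) (h2 : p ≠ 2) (e : H) : (orderOf e).Coprime p := by
  rw [Nat.coprime_comm, hp.out.coprime_iff_not_dvd]
  rintro ⟨m, hm⟩
  have hpos : 0 < orderOf e := orderOf_pos e
  have hm0 : 0 < m := by
    rcases Nat.eq_zero_or_pos m with h | h
    · rw [h] at hm; omega
    · exact h
  have h1 : (e ^ m) ^ p = 1 := by
    rw [← pow_mul, mul_comm, ← hm, pow_orderOf_eq_one]
  have h3 := no_p hb h2 h1
  have h4 := Nat.le_of_dvd hm0 (orderOf_dvd_of_pow_eq_one h3)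
  rw [hm] at h4
  have := hp.out.two_le
  nlinarith

/-- coprime elements: fixed vectors and commutators are disjoint -/
lemma disj {e : H} (he : (orderOf e).Coprime p) {v : V} (h1 : v ∈ bk p V e) (h2 : v ∈ fx p V e) :
    v = 0 := by
  obtain ⟨u, hu⟩ := mem_bk.1 h1
  rw [mem_fx] at h2
  have h3 : ∀ i : ℕ, e ^ i • u = u - i • v := by
    intro i
    induction i with
    | zero => simp
    | succ i ih =>
      have h5 : e • (i • v) = i • v := by rw [← smul_comm, h2]
      rw [pow_succ', mul_smul, ih, smul_sub, h5, succ_nsmul, ← hu]; abel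
  have h4 := h3 (orderOf e)
  rw [pow_orderOf_eq_one, one_smul] at h4
  have h5 : orderOf e • v = 0 := by
    have := sub_eq_self.1 h4.symm
    exact this
  have h6 := Nat.eq_one_of_dvd_coprimes he (addOrderOf_dvd_of_nsmul_eq_zero h5)
    (addOrderOf_dvd_of_nsmul_eq_zero (p_smul p v))
  exact AddMonoid.addOrderOf_eq_one_iff.1 h6

lemma sup_top {e : H} (he : (orderOf e).Coprime p) : fx p V e ⊔ bk p V e = ⊤ := by
  apply Submodule.eq_top_of_finrank_eq
  have h1 := Submodule.finrank_sup_add_finrank_inf_eq (fx p V e) (bk p V e)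
  have h2 : fx p V e ⊓ bk p V e = ⊥ := by
    rw [eq_bot_iff]
    rintro v ⟨hv1, hv2⟩
    exact disj he hv2 hv1
  rw [h2, finrank_bot] at h1
  have := dim_add p V e
  omega

lemma decomp {e : H} (he : (orderOf e).Coprime p) (v : V) :
    ∃ r ∈ fx p V e, ∃ m ∈ bk p V e, v = r + m := by
  have : v ∈ fx p V e ⊔ bk p V e := by rw [sup_top he]; trivial
  obtain ⟨r, hr, m, hm, h⟩ := Submodule.mem_sup.1 this
  exact ⟨r, hr, m, hm, h.symm⟩

lemma smul_bk_of_inv {g e : H} (h : g * e = e⁻¹ * g) {v : V} (hv : v ∈ bk p V e) :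
    g • v ∈ bk p V e := by
  obtain ⟨u, rfl⟩ := mem_bk.1 hv
  rw [smul_sub, ← mul_smul, h, mul_smul, ← bk_inv]
  exact sub_mem_bk _ _

section pair
variable {k k' : H}

lemma kE (hb : IsBin H V) (hk : IsR p V k) (hk' : IsR p V k') : k * (k * k') = (k * k')⁻¹ * k := by
  rw [mul_inv_rev, r3' hb hk, r3' hb hk', ← mul_assoc, r3 hb hk, mul_assoc, r3 hb hk, one_mul,
    mul_one]

lemma k'E (hb : IsBin H V) (hk : IsR p V k) (hk' : IsR p V k') :
    k' * (k * k') = (k * k')⁻¹ * k' := by
  rw [mul_inv_rev, r3' hb hk, r3' hb hk', mul_assoc]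

lemma fx_mul (hb : IsBin H V) (hk : IsR p V k) (hk' : IsR p V k') (hne : k ≠ k') :
    fx p V (k * k') = fx p V k ⊓ fx p V k' := by
  ext v
  constructor
  · intro h
    exact r5 hb hk hk' hne (mem_fx.1 h)
  · rintro ⟨h1, h2⟩
    exact mem_fx_mul h1 h2

lemma bk_inf (hb : IsBin H V) (hk : IsR p V k) (hk' : IsR p V k') (hne : k ≠ k') :
    bk p V k ⊓ bk p V k' = ⊥ := by
  rw [eq_bot_iff]
  rintro v ⟨h1, h2⟩
  by_contra h0
  exact hne (r2 hb hk hk' h1 h2 h0)

lemma bk_mul (hb : IsBin H V) (hk : IsR p V k) (hk' : IsR p V k') (hne : k ≠ k')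
    (hc : (orderOf (k * k')).Coprime p) : bk p V (k * k') = bk p V k ⊔ bk p V k' := by
  have hle : fx p V (k * k') ≤ fx p V k ⊓ fx p V k' := (fx_mul hb hk hk' hne).le
  have h1 : ∀ g : H, g * (k * k') = (k * k')⁻¹ * g → fx p V (k * k') ≤ fx p V g →
      bk p V g ≤ bk p V (k * k') := by
    intro g hg hle' w hw
    obtain ⟨v, rfl⟩ := mem_bk.1 hw
    obtain ⟨r, hr, m, hm, rfl⟩ := decomp hc v
    have h2 : r + m - g • (r + m) = m - g • m := by
      rw [smul_add, mem_fx.1 (hle' hr)]; abel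
    rw [h2]
    exact sub_mem hm (smul_bk_of_inv hg hm)
  apply le_antisymm
  · intro w hw
    obtain ⟨v, rfl⟩ := mem_bk.1 hw
    have h3 : v - (k * k') • v = ((v - k • v) + (v - k' • v)) -
        ((v - k' • v) - k • (v - k' • v)) := by
      rw [mul_smul, smul_sub]; abel
    rw [h3]
    refine sub_mem (add_mem ?_ ?_) ?_
    · exact Submodule.mem_sup_left (sub_mem_bk _ _)
    · exact Submodule.mem_sup_right (sub_mem_bk _ _)
    · exact Submodule.mem_sup_left (sub_mem_bk _ _)
  · exact sup_le (h1 k (kE hb hk hk') (hle.trans inf_le_left))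
      (h1 k' (k'E hb hk hk') (hle.trans inf_le_right))

lemma pair_inf (hb : IsBin H V) (hk : IsR p V k) (hk' : IsR p V k') (hne : k ≠ k')
    (hc : (orderOf (k * k')).Coprime p) :
    (fx p V k ⊓ fx p V k') ⊓ (bk p V k ⊔ bk p V k') = ⊥ := by
  rw [← bk_mul hb hk hk' hne hc, ← fx_mul hb hk hk' hne, eq_bot_iff]
  rintro v ⟨h1, h2⟩
  exact disj hc h2 h1

lemma pair_sup (hb : IsBin H V) (hk : IsR p V k) (hk' : IsR p V k') (hne : k ≠ k')
    (hc : (orderOf (k * k')).Coprime p) :
    (fx p V k ⊓ fx p V k') ⊔ (bk p V k ⊔ bk p V k') = ⊤ := by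
  rw [← bk_mul hb hk hk' hne hc, ← fx_mul hb hk hk' hne]
  exact sup_top hc

lemma bk_dim (hb : IsBin H V) (hk : IsR p V k) (hk' : IsR p V k') (hne : k ≠ k') :
    finrank (ZMod p) ↥(bk p V k ⊔ bk p V k') =
      finrank (ZMod p) (bk p V k) + finrank (ZMod p) (bk p V k') := by
  have h2 := Submodule.finrank_sup_add_finrank_inf_eq (bk p V k) (bk p V k')
  rw [bk_inf hb hk hk' hne, finrank_bot] at h2
  omega

lemma pair_dim (hb : IsBin H V) (hk : IsR p V k) (hk' : IsR p V k') (hne : k ≠ k')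
    (hc : (orderOf (k * k')).Coprime p) :
    finrank (ZMod p) ↥(fx p V k ⊓ fx p V k') +
      (finrank (ZMod p) (bk p V k) + finrank (ZMod p) (bk p V k')) = finrank (ZMod p) V := by
  have h1 := dim_add p V (k * k')
  rw [bk_mul hb hk hk' hne hc, fx_mul hb hk hk' hne, bk_dim hb hk hk' hne] at h1
  omega

end pair

/-- in characteristic 2, the product of two non-commuting reflections has odd order -/
lemma cop_two (hb : IsBin H V) (h2 : p = 2) {k k' : H} (hk : IsR p V k) (hk' : IsR p V k')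
    (hnc : k * k' ≠ k' * k) : (orderOf (k * k')).Coprime p := by
  rw [h2, Nat.coprime_comm, Nat.prime_two.coprime_iff_not_dvd]
  rintro ⟨n, hn⟩
  have hpos : 0 < orderOf (k * k') := orderOf_pos _
  set e := k * k' with he
  have hn0 : 0 < n := by omega
  have hz1 : e ^ n ≠ 1 := by
    intro h
    have := Nat.le_of_dvd hn0 (orderOf_dvd_of_pow_eq_one h)
    omega
  have hzz : e ^ n * e ^ n = 1 := by
    rw [← pow_add, ← two_mul, ← hn, pow_orderOf_eq_one]
  have hke : k * e = e⁻¹ * k := kE hb hk hk'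
  have hke' : k * e = k' := by rw [he, ← mul_assoc, r3 hb hk, one_mul]
  have hR : ∀ m : ℕ, IsR p V (k * e ^ m) ∧ IsR p V (k * e ^ (m + 1)) := by
    intro m
    induction m with
    | zero =>
      rw [pow_zero, mul_one, zero_add, pow_one, hke']
      exact ⟨hk, hk'⟩
    | succ m ih =>
      refine ⟨ih.2, ?_⟩
      have := isR_conj ih.1 e⁻¹
      have h3 : e⁻¹ * (k * e ^ m) * e⁻¹⁻¹ = k * e ^ (m + 1 + 1) := by
        rw [← mul_assoc, ← hke, inv_inv, mul_assoc, mul_assoc, ← pow_succ, ← pow_succ']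
      rwa [h3] at this
  have hkz : k * e ^ n = e ^ n * k := by
    have h4 : ∀ m : ℕ, k * e ^ m = (e ^ m)⁻¹ * k := by
      intro m
      induction m with
      | zero => simp
      | succ m ih =>
        rw [pow_succ, ← mul_assoc, ih, mul_assoc, hke, ← mul_assoc, ← mul_inv_rev, ← pow_succ',
          ← pow_succ]
    rw [h4, inv_eq_of_mul_eq_one_left hzz]
  have hk'z : k' * e ^ n = e ^ n * k' := by
    rw [← hke', mul_assoc, ← pow_succ', pow_succ, ← mul_assoc, hkz, mul_assoc]
  have hRz : IsR p V (k * e ^ n) := (hR n).1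
  have hRz' : IsR p V (k' * e ^ n) := by
    have := (hR n).2
    rwa [pow_succ', ← mul_assoc, hke'] at this
  have hne1 : k ≠ k * e ^ n := fun h => hz1 (mul_eq_left.1 h.symm)
  have hne2 : k' ≠ k' * e ^ n := fun h => hz1 (mul_eq_left.1 h.symm)
  have h5 : bk p V k ≤ fx p V (k * e ^ n) := r7 hb hk hRz hne1 (by
    rw [hkz, ← mul_assoc, mul_assoc (e ^ n), r3 hb hk, hkz, mul_assoc, r3 hb hk])
  obtain ⟨w, hw, hw0⟩ := exists_bk_ne (p := p) (V := V) hk.1
  have h6 : e ^ n • w = w := by
    have h7 := mem_fx.1 (h5 hw)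
    rw [mul_smul, ← inv_smul_eq_iff.trans eq_comm, r3' hb hk, neg_of_bk hb hk hw, two_neg p h2] at h7
    exact h7.symm
  have h8 : w ∈ fx p V k' := (r5 hb hk' hRz' hne2 (by
    rw [← mul_assoc, r3 hb hk', one_mul]; exact h6)).1
  exact hnc (r6 hb hk hw hw0 (mem_fx.1 h8)).symm

lemma cop_nc (hb : IsBin H V) {k k' : H} (hk : IsR p V k) (hk' : IsR p V k')
    (hnc : k * k' ≠ k' * k) : (orderOf (k * k')).Coprime p := by
  by_cases h2 : p = 2
  · exact cop_two hb h2 hk hk' hnc
  · exact cop_odd hb h2 _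

end Cfsg.Agent.H4.Bin
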