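import Cfsg.Agent.H4_Bin2

/-! Binary affine groups III: the pointwise stabiliser of `R` (helper4, for S5753). -/

set_option autoImplicit false
set_option linter.unusedSectionVars false

namespace Cfsg.Agent.H4.Bin

open Module

variable {p : ℕ} [hp : Fact p.Prime] {V H : Type*} [AddCommGroup V] [Module (ZMod p) V]
  [Group H] [DistribMulAction H V] [FaithfulSMul H V] [Finite V] [Finite H]

variable (p V) in
/-- the minimal reflections -/
def IsK (d : ℕ) (k : H) : Prop := IsR p V k ∧ finrank (ZMod p) (bk p V k) = d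

variable (p V H) in
def MinD (d : ℕ) : Prop := ∀ k : H, IsR p V k → d ≤ finrank (ZMod p) (bk p V k)

variable (p V) in
structure NC (d : ℕ) (k k1 : H) : Prop where
  ck : IsK p V d k
  ck1 : IsK p V d k1
  nc : k * k1 ≠ k1 * k

lemma isK_conj {d : ℕ} {k : H} (h : IsK p V d k) (g : H) : IsK p V d (g * k * g⁻¹) := by
  refine ⟨isR_conj h.1 g, ?_⟩
  rw [← h.2]
  have : bk p V (g * k * g⁻¹) = (bk p V k).map
      (AddMonoidHom.toZModLinearMap p (DistribMulAction.toAddMonoidHom V g)) := by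
    ext v
    rw [mem_bk_conj, Submodule.mem_map]
    constructor
    · intro h
      exact ⟨_, h, smul_inv_smul g v⟩
    · rintro ⟨w, hw, rfl⟩
      have : g⁻¹ • (g • w) ∈ bk p V k := by rw [inv_smul_smul]; exact hw
      exact this
  rw [this]
  refine (LinearEquiv.finrank_eq (Submodule.equivMapOfInjective _ ?_ _)).symm
  intro a b hab
  exact smul_left_cancel g hab

namespace NC
variable {d : ℕ} {k k1 : H}

lemma ne (h : NC p V d k k1) : k ≠ k1 := by
  intro he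
  apply h.nc
  rw [he]

lemma symm (h : NC p V d k k1) : NC p V d k1 k := ⟨h.ck1, h.ck, h.nc.symm⟩

lemma conj (h : NC p V d k k1) (g : H) : NC p V d (g * k * g⁻¹) (g * k1 * g⁻¹) := by
  refine ⟨isK_conj h.ck g, isK_conj h.ck1 g, fun hc => h.nc ?_⟩
  have h1 : g * (k * k1) * g⁻¹ = g * (k1 * k) * g⁻¹ := by
    calc g * (k * k1) * g⁻¹ = g * k * g⁻¹ * (g * k1 * g⁻¹) := by group
      _ = g * k1 * g⁻¹ * (g * k * g⁻¹) := hc
      _ = _ := by group
  exact mul_left_cancel (mul_right_cancel h1)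

lemma cop (hb : IsBin H V) (h : NC p V d k k1) : (orderOf (k * k1)).Coprime p :=
  cop_nc hb h.ck.1 h.ck1.1 h.nc

lemma dimM (hb : IsBin H V) (h : NC p V d k k1) :
    finrank (ZMod p) ↥(bk p V k ⊔ bk p V k1) = 2 * d := by
  rw [bk_dim hb h.ck.1 h.ck1.1 h.ne, h.ck.2, h.ck1.2]; ring

lemma dimR (hb : IsBin H V) (h : NC p V d k k1) :
    finrank (ZMod p) ↥(fx p V k ⊓ fx p V k1) + 2 * d = finrank (ZMod p) V := by
  have := pair_dim hb h.ck.1 h.ck1.1 h.ne (h.cop hb)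
  rw [h.ck.2, h.ck1.2] at this
  omega

lemma inf (hb : IsBin H V) (h : NC p V d k k1) :
    (fx p V k ⊓ fx p V k1) ⊓ (bk p V k ⊔ bk p V k1) = ⊥ :=
  pair_inf hb h.ck.1 h.ck1.1 h.ne (h.cop hb)

lemma sup (hb : IsBin H V) (h : NC p V d k k1) :
    (fx p V k ⊓ fx p V k1) ⊔ (bk p V k ⊔ bk p V k1) = ⊤ :=
  pair_sup hb h.ck.1 h.ck1.1 h.ne (h.cop hb)

end NC

lemma fx_top_of (hb : IsBin H V) {d : ℕ} {k k1 κ : H} (h : NC p V d k k1)
    (hR : fx p V k ⊓ fx p V k1 ≤ fx p V κ) (h1 : bk p V k ≤ fx p V κ) (h2 : bk p V k1 ≤ fx p V κ) :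
    κ = 1 := by
  apply one_of_fx_top (p := p) (V := V)
  rw [eq_top_iff, ← h.sup hb]
  exact sup_le hR (sup_le h1 h2)

lemma isK_two (hb : IsBin H V) (h2 : p = 2) {d : ℕ} (hd : MinD p V H d) {k k1 κ : H}
    (h : NC p V d k k1) (hκ : IsR p V κ) (hR : fx p V k ⊓ fx p V k1 ≤ fx p V κ) :
    IsK p V d κ ∧ fx p V κ = (fx p V k ⊓ fx p V k1) ⊔ bk p V κ := by
  have hinf : (fx p V k ⊓ fx p V k1) ⊓ bk p V κ = ⊥ := by
    rw [eq_bot_iff]
    rintro w ⟨⟨hw1, hw2⟩, hw3⟩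
    by_contra hw0
    have c1 := r6 hb hκ hw3 hw0 (mem_fx.1 hw1)
    have c2 := r6 hb hκ hw3 hw0 (mem_fx.1 hw2)
    have n1 : k ≠ κ := fun he => h.nc (he ▸ c2.symm)
    have n2 : k1 ≠ κ := fun he => h.nc (he ▸ c1)
    exact hκ.1 (fx_top_of hb h hR (r7 hb h.ck.1 hκ n1 c1) (r7 hb h.ck1.1 hκ n2 c2))
  have hle : bk p V κ ≤ fx p V κ := by
    intro w hw
    rw [mem_fx, neg_of_bk hb hκ hw, two_neg p h2]
  have hle2 : (fx p V k ⊓ fx p V k1) ⊔ bk p V κ ≤ fx p V κ := sup_le hR hle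
  have e1 := Submodule.finrank_sup_add_finrank_inf_eq (fx p V k ⊓ fx p V k1) (bk p V κ)
  rw [hinf, finrank_bot] at e1
  have e2 := Submodule.finrank_mono hle2
  have e3 := dim_add p V κ
  have e4 := h.dimR hb
  have e5 := hd κ hκ
  have e6 : finrank (ZMod p) (bk p V κ) = d := by omega
  refine ⟨⟨hκ, e6⟩, ?_⟩
  exact (Submodule.eq_of_le_of_finrank_eq hle2 (by omega)).symm

lemma isK_odd (hb : IsBin H V) (h2 : p ≠ 2) {d : ℕ} (hd : MinD p V H d) {k k1 κ : H}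
    (h : NC p V d k k1) (hκ : IsR p V κ) (hR : fx p V k ⊓ fx p V k1 ≤ fx p V κ) :
    IsK p V d κ := by
  by_cases hne : κ = k
  · rw [hne]; exact h.ck
  refine ⟨hκ, ?_⟩
  have e1 := pair_dim hb hκ h.ck.1 hne (cop_odd hb h2 _)
  have e2 : fx p V k ⊓ fx p V k1 ≤ fx p V κ ⊓ fx p V k := le_inf hR inf_le_left
  have e3 := Submodule.finrank_mono e2
  have e4 := h.dimR hb
  have e5 := hd κ hκ
  rw [h.ck.2] at e1
  omega

lemma isK_of (hb : IsBin H V) {d : ℕ} (hd : MinD p V H d) {k k1 κ : H}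
    (h : NC p V d k k1) (hκ : IsR p V κ) (hR : fx p V k ⊓ fx p V k1 ≤ fx p V κ) :
    IsK p V d κ := by
  by_cases h2 : p = 2
  · exact (isK_two hb h2 hd h hκ hR).1
  · exact isK_odd hb h2 hd h hκ hR

lemma fx_inf_eq (hb : IsBin H V) {d : ℕ} (hd : MinD p V H d) {k k1 κ κ' : H}
    (h : NC p V d k k1) (hκ : IsR p V κ) (hR : fx p V k ⊓ fx p V k1 ≤ fx p V κ)
    (hκ' : IsR p V κ') (hR' : fx p V k ⊓ fx p V k1 ≤ fx p V κ') (hne : κ ≠ κ')
    (hc : (orderOf (κ * κ')).Coprime p) : fx p V κ ⊓ fx p V κ' = fx p V k ⊓ fx p V k1 := by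
  have e1 := pair_dim hb hκ hκ' hne hc
  rw [(isK_of hb hd h hκ hR).2, (isK_of hb hd h hκ' hR').2] at e1
  have e4 := h.dimR hb
  exact (Submodule.eq_of_le_of_finrank_eq (le_inf hR hR') (by omega)).symm

lemma fx_eq_or (hb : IsBin H V) {d : ℕ} (hd : MinD p V H d) {k k1 κ κ' : H}
    (h : NC p V d k k1) (hκ : IsR p V κ) (hR : fx p V k ⊓ fx p V k1 ≤ fx p V κ)
    (hκ' : IsR p V κ') (hR' : fx p V k ⊓ fx p V k1 ≤ fx p V κ') :
    fx p V κ = fx p V κ' ∨ fx p V κ ⊓ fx p V κ' = fx p V k ⊓ fx p V k1 := by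
  by_cases hne : κ = κ'
  · left; rw [hne]
  by_cases h2 : p = 2
  · by_cases hc : κ * κ' = κ' * κ
    · left
      have h3 := isK_two hb h2 hd h hκ hR
      have h4 : fx p V κ ≤ fx p V κ' := by
        rw [h3.2]
        exact sup_le hR' (r7 hb hκ hκ' hne hc)
      refine Submodule.eq_of_le_of_finrank_eq h4 ?_
      have e1 := dim_add p V κ
      have e2 := dim_add p V κ'
      rw [h3.1.2] at e1
      rw [(isK_two hb h2 hd h hκ' hR').1.2] at e2
      omega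
    · right
      exact fx_inf_eq hb hd h hκ hR hκ' hR' hne (cop_nc hb hκ hκ' hc)
  · right
    exact fx_inf_eq hb hd h hκ hR hκ' hR' hne (cop_odd hb h2 _)

/-- S2 -/
lemma s2 (hb : IsBin H V) {d : ℕ} (hd : MinD p V H d) {k k1 l : H}
    (h : NC p V d k k1) (hl1 : l ≠ 1) (hR : fx p V k ⊓ fx p V k1 ≤ fx p V l)
    (hne : fx p V l ≠ fx p V k ⊓ fx p V k1) : IsK p V d l := by
  obtain ⟨κ, hκ, hlκ⟩ := exists_isR (p := p) (V := V) hl1
  have hRκ := hR.trans hlκ
  have hK := isK_of hb hd h hκ hRκ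
  have key : ∀ κ' : H, IsR p V κ' → fx p V l ≤ fx p V κ' → fx p V κ' = fx p V κ := by
    intro κ' hκ' hle
    rcases fx_eq_or hb hd h hκ' (hR.trans hle) hκ hRκ with h1 | h1
    · exact h1
    · exact absurd (le_antisymm (h1 ▸ le_inf hle hlκ) hR) hne
  have star : ∀ g : H, g ≠ 1 → fx p V l ≤ fx p V g → fx p V g ≤ fx p V κ := by
    intro g hg hle
    obtain ⟨κ', hκ', hle'⟩ := exists_isR (p := p) (V := V) hg
    rw [← key κ' hκ' (hle.trans hle')]
    exact hle'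
  have star' : ∀ g : H, fx p V l ≤ fx p V g → ∀ v, v ∉ fx p V κ → g • v = v → g = 1 := by
    intro g hle v hv hg
    by_contra hg1
    exact hv (star g hg1 hle (mem_fx.2 hg))
  by_cases h2 : p = 2
  · have hsq : ∀ g : H, fx p V l ≤ fx p V g → g * g = 1 := by
      intro g hg
      obtain ⟨v, hv⟩ : ∃ v, v ∉ fx p V κ := by
        by_contra hc
        push Not at hc
        exact hκ.1 (one_of_forall (V := V) fun v => mem_fx.1 (hc v))
      obtain ⟨g', hg1, hg2, hg3⟩ := swap hb hg (y := v) ⟨1, by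
        rw [one_smul, ← neg_sub, two_neg p h2]⟩
      have h3 : g⁻¹ * g' = 1 := star' _ (fun x hx => mem_fx_mul (mem_fx_inv (hg hx)) (hg1 hx)) v hv
        (by rw [mul_smul, hg2, inv_smul_smul])
      have h4 : g = g' := inv_mul_eq_one.1 h3
      rw [← h4] at hg3
      exact star' _ (fun x hx => mem_fx_mul (hg hx) (hg hx)) v hv (by rw [mul_smul, hg3])
    have hll := hsq l le_rfl
    have hκκ := r3 hb hκ
    have hlκ2 := hsq (l * κ) (fun x hx => mem_fx_mul hx (hlκ hx))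
    have hcomm : l * κ = κ * l := by
      have h5 : (l * κ)⁻¹ = l * κ := inv_eq_of_mul_eq_one_left hlκ2
      rw [mul_inv_rev, inv_eq_of_mul_eq_one_left hll, r3' hb hκ] at h5
      exact h5.symm
    have hfix : bk p V κ ≤ fx p V l := by
      intro w0 hw0
      by_contra hc
      have hw : w0 - l • w0 ≠ 0 := fun h0 => hc (mem_fx.2 (sub_eq_zero.1 h0).symm)
      have hwB : w0 - l • w0 ∈ bk p V κ := sub_mem hw0 (smul_mem_bk_of_comm hcomm hw0)
      have h6 := r1 hb hκ hwB hw (z := w0) ⟨l, by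
        rw [← two_neg p h2 (w0 - l • w0)]; abel⟩
      rw [neg_of_bk hb hκ hw0, two_neg p h2] at h6
      exact hw (left_eq_add.1 h6)
    have h7 : fx p V l = fx p V κ := by
      refine le_antisymm hlκ ?_
      rw [(isK_two hb h2 hd h hκ hRκ).2]
      exact sup_le hR hfix
    refine ⟨⟨hl1, fun l' hl' hle => ?_⟩, ?_⟩
    · rw [h7] at hle ⊢
      exact hκ.2 l' hl' hle
    · have e1 := dim_add p V κ
      have e2 := dim_add p V l
      rw [h7] at e2
      have := hK.2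
      omega
  · have hcomm : l * κ = κ * l := by
      have h3 : fx p V l ≤ fx p V (l * κ * l⁻¹) := by
        intro x hx
        exact mem_fx_mul (mem_fx_mul hx (hlκ hx)) (mem_fx_inv hx)
      by_contra hc
      have hne' : l * κ * l⁻¹ ≠ κ := fun he => hc (mul_inv_eq_iff_eq_mul.1 he)
      have h4 := fx_inf_eq hb hd h (isR_conj hκ l) (hR.trans h3) hκ hRκ hne' (cop_odd hb h2 _)
      exact hne (le_antisymm (h4 ▸ le_inf h3 hlκ) hR)
    have hdis : ∀ b ∈ bk p V κ, b ∈ fx p V κ → b = 0 := fun b hb1 hb2 =>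
      disj (cop_odd hb h2 κ) hb1 hb2
    obtain ⟨b, hbB, hb0⟩ := exists_bk_ne (p := p) (V := V) hκ.1
    have hbx : ∀ b ∈ bk p V κ, b ≠ 0 → b ∉ fx p V κ := fun b hb1 hb0 hb2 => hb0 (hdis b hb1 hb2)
    have hlb : l • b ∈ bk p V κ := smul_mem_bk_of_comm hcomm hbB
    obtain ⟨g', hg1, hg2, hg3⟩ := swap hb (le_refl (fx p V l)) (y := b) ⟨κ, by
      rw [neg_of_bk hb hκ (sub_mem hbB hlb), neg_sub]⟩
    have h3 : l⁻¹ * g' = 1 := star' _ (fun x hx => mem_fx_mul (mem_fx_inv hx) (hg1 hx)) b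
      (hbx b hbB hb0) (by rw [mul_smul, hg2, inv_smul_smul])
    have h4 : l = g' := inv_mul_eq_one.1 h3
    rw [← h4] at hg3
    have hll : l * l = 1 := star' _ (fun x hx => mem_fx_mul hx hx) b (hbx b hbB hb0)
      (by rw [mul_smul, hg3])
    have h5 : b + l • b = 0 := by
      apply hdis _ (add_mem hbB hlb)
      apply star l hl1 le_rfl
      rw [mem_fx, smul_add, ← mul_smul, hll, one_smul, add_comm]
    have h6 : κ⁻¹ * l = 1 := star' _ (fun x hx => mem_fx_mul (mem_fx_inv (hlκ hx)) hx) b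
      (hbx b hbB hb0) (by
        rw [mul_smul, inv_smul_eq_iff, neg_of_bk hb hκ hbB]
        exact eq_neg_of_add_eq_zero_right h5)
    rw [← inv_mul_eq_one.1 h6]
    exact hK

end Cfsg.Agent.H4.Bin
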