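import Cfsg.Agent.H4_Bin3

/-! Binary affine groups IV: covering of the planes (helper4, for S5753). -/

set_option autoImplicit false
set_option linter.unusedSectionVars false

namespace Cfsg.Agent.H4.Bin

open Module

variable {p : ℕ} [hp : Fact p.Prime] {V H : Type*} [AddCommGroup V] [Module (ZMod p) V]
  [Group H] [DistribMulAction H V] [FaithfulSMul H V] [Finite V] [Finite H]

lemma mem_bk_of_neg (h2 : p ≠ 2) {g : H} {a : V} (h : g • a = -a) : a ∈ bk p V g := by
  have h1 : a - g • a ∈ bk p V g := sub_mem_bk g a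
  rw [h, sub_neg_eq_add, ← two_smul (ZMod p)] at h1
  refine (Submodule.smul_mem_iff _ ?_).1 h1
  intro h0
  have : ((2 : ℕ) : ZMod p) = 0 := by exact_mod_cast h0
  rw [ZMod.natCast_eq_zero_iff] at this
  exact h2 ((Nat.prime_dvd_prime_iff_eq hp.out Nat.prime_two).1 this)

lemma ne_neg (h2 : p ≠ 2) {a : V} (h : a ≠ 0) : a ≠ -a := by
  intro h1
  exact h (odd_two p h2 (by nth_rw 2 [h1]; exact add_neg_cancel a))

section
variable {d : ℕ} {k k' : H}

/-- E2 -/
lemma fix_sq (hb : IsBin H V) (hd : MinD p V H d) (h : NC p V d k k') {y : V}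
    (hy : (k * k' * (k * k')) • y = y) : y ∈ fx p V k ⊓ fx p V k' := by
  set e := k * k' with he
  have hke : k * e = e⁻¹ * k := kE hb h.ck.1 h.ck1.1
  have hke' : k' * e = e⁻¹ * k' := k'E hb h.ck.1 h.ck1.1
  have hfe : fx p V e = fx p V k ⊓ fx p V k' := fx_mul hb h.ck.1 h.ck1.1 h.ne
  by_cases h2 : p = 2
  · -- odd order: `e` is a power of `e * e`
    have hc : (orderOf e).Coprime 2 := by
      have := h.cop hb
      rwa [h2] at this
    rw [← hfe, mem_fx]
    have h3 : ∀ n : ℕ, (e * e) ^ n • y = y := by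
      intro n
      induction n with
      | zero => simp
      | succ n ih => rw [pow_succ, mul_smul, hy, ih]
    obtain ⟨n, hn⟩ : ∃ n, orderOf e = 2 * n + 1 := by
      rcases Nat.even_or_odd' (orderOf e) with ⟨n, hn | hn⟩
      · rw [hn] at hc
        have := Nat.Coprime.eq_one_of_dvd hc.symm (Dvd.intro n rfl)
        omega
      · exact ⟨n, hn⟩
    have h4 : (e * e) ^ (n + 1) = e := by
      rw [← pow_two, ← pow_mul, show 2 * (n + 1) = (2 * n + 1) + 1 by ring, pow_succ, ← hn,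
        pow_orderOf_eq_one, one_mul]
    have := h3 (n + 1)
    rwa [h4] at this
  by_contra hcon
  have hE1 : e * e ≠ 1 := by
    intro h1
    apply h.nc
    have : e = e⁻¹ := eq_inv_of_mul_eq_one_left h1
    rw [he] at this
    rw [this, mul_inv_rev, r3' hb h.ck.1, r3' hb h.ck1.1]
  have hRe : fx p V k ⊓ fx p V k' ≤ fx p V (e * e) := by
    rw [← hfe]
    intro x hx
    exact mem_fx_mul hx hx
  have hK : IsK p V d (e * e) := s2 hb hd h hE1 hRe (fun h1 => hcon (by rw [← h1]; exact mem_fx.2 hy))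
  have hinv : (e * e)⁻¹ = e * e := r3' hb hK.1
  have c1 : (e * e) * k = k * (e * e) := by
    rw [← mul_assoc k, hke, mul_assoc e⁻¹, hke, ← mul_assoc e⁻¹, ← mul_inv_rev, hinv]
  have c2 : (e * e) * k' = k' * (e * e) := by
    rw [← mul_assoc k', hke', mul_assoc e⁻¹, hke', ← mul_assoc e⁻¹, ← mul_inv_rev, hinv]
  have n1 : e * e ≠ k := by
    intro h1
    have : k * e = e * k := by rw [← h1, mul_assoc]
    rw [he, ← mul_assoc, r3 hb h.ck.1, one_mul, mul_assoc] at this
    apply h.nc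
    nth_rw 1 [this]
    rw [← mul_assoc, r3 hb h.ck.1, one_mul]
  have n2 : e * e ≠ k' := by
    intro h1
    have : k' * e = e * k' := by rw [← h1, mul_assoc]
    rw [he, mul_assoc, r3 hb h.ck1.1, mul_one] at this
    apply h.nc
    nth_rw 1 [← this]
    rw [mul_assoc, mul_assoc, r3 hb h.ck1.1, mul_one]
  obtain ⟨w, hw, hw0⟩ := exists_bk_ne (p := p) (V := V) hE1
  have h3 := r7 hb hK.1 h.ck.1 n1 c1 hw
  have h4 := r7 hb hK.1 h.ck1.1 n2 c2 hw
  exact hw0 (disj (cop_odd hb h2 _) hw (hRe ⟨h3, h4⟩))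

/-- the element acting as `-1` on `M` -/
lemma negM (hb : IsBin H V) (hd : MinD p V H d) (h2 : p ≠ 2) (h : NC p V d k k') :
    ∃ z : H, fx p V k ⊓ fx p V k' ≤ fx p V z ∧ ∀ x ∈ bk p V k ⊔ bk p V k', z • x = -x := by
  classical
  set R := fx p V k ⊓ fx p V k' with hR
  set M := bk p V k ⊔ bk p V k' with hM
  set e := k * k' with he
  have hke : k * e = e⁻¹ * k := kE hb h.ck.1 h.ck1.1
  have hfe : fx p V e = R := fx_mul hb h.ck.1 h.ck1.1 h.ne
  have hbe : bk p V e = M := bk_mul hb h.ck.1 h.ck1.1 h.ne (h.cop hb)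
  have hinf : ∀ x, x ∈ R → x ∈ M → x = 0 := by
    intro x h1 h3
    have : x ∈ R ⊓ M := ⟨h1, h3⟩
    rw [h.inf hb] at this
    exact this
  set k2 := e * k * e⁻¹ with hk2
  have hK2 : IsK p V d k2 := isK_conj h.ck e
  have hek : e * (k * e) = k := by rw [hke, mul_inv_cancel_left]
  obtain ⟨a, haB, ha0⟩ := exists_bk_ne (p := p) (V := V) h.ck.1.1
  have haM : a ∈ M := Submodule.mem_sup_left haB
  have heM : ∀ x ∈ M, e • x ∈ M := by
    intro x hx
    rw [← hbe] at hx ⊢
    exact smul_mem_bk_of_comm rfl hx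
  have hMe : ∀ x, e • x ∈ M → x ∈ M := by
    intro x hx
    rw [← hbe] at hx ⊢
    have : e⁻¹ • (e • x) ∈ bk p V e := smul_mem_bk_of_comm (by group) hx
    rwa [inv_smul_smul] at this
  have hka : k • a = -a := neg_of_bk hb h.ck.1 haB
  have heaB : e • a ∈ bk p V k2 := smul_mem_bk_conj haB
  have hk2a : k2 • (e • a) = -(e • a) := neg_of_bk hb hK2.1 heaB
  have hea0 : e • a ≠ 0 := fun h0 => ha0 ((smul_eq_zero_iff_eq e).1 h0)
  have haR : a ∉ R := fun h1 => ha0 (hinf a h1 haM)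
  have heaR : -(e • a) ∉ R := fun h1 => hea0 (hinf _ (neg_mem_iff.1 h1) (heM a haM))
  have hRk : R ≤ fx p V k := inf_le_left
  have hRe : R ≤ fx p V e := hfe.ge
  have hRk2 : R ≤ fx p V k2 := fun x hx => mem_fx_mul (mem_fx_mul (hRe hx) (hRk hx))
    (mem_fx_inv (hRe hx))
  have hek1 : (e * k) • (e • a) = -a := by rw [← mul_smul, mul_assoc, hek, hka]
  have hek2 : (e * k) • a = -(e • a) := by rw [mul_smul, hka, smul_neg]
  obtain ⟨g, hg⟩ := hb {x | x ∈ R ∨ x = a ∨ x = -(e • a)} (fun x => if x ∈ R then x else -x)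
    (Or.inl R.zero_mem) (by
      rw [if_pos R.zero_mem]) (by
      have hneg : ∀ a b : V, (∃ h : H, h • a = b) → ∃ h : H, h • (-a) = -b := by
        rintro a b ⟨h, hh⟩
        exact ⟨h, by rw [smul_neg, hh]⟩
      have q1 : ∀ r ∈ R, ∃ h : H, h • (r - a) = r - -a := fun r hr =>
        ⟨k, by rw [smul_sub, hka, mem_fx.1 (hRk hr)]⟩
      have q2 : ∀ r ∈ R, ∃ h : H, h • (r - -(e • a)) = r - - -(e • a) := fun r hr =>
        ⟨k2, by rw [smul_sub, smul_neg, hk2a, mem_fx.1 (hRk2 hr)]⟩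
      have q3 : ∃ h : H, h • (a - -(e • a)) = -a - - -(e • a) :=
        ⟨e * k, by rw [smul_sub, smul_neg, hek1, hek2]; abel⟩
      rintro x hx y hy
      rcases hx with hx | rfl | rfl
      · rw [if_pos hx]
        rcases hy with hy | rfl | rfl
        · rw [if_pos hy]; exact ⟨1, one_smul _ _⟩
        · rw [if_neg haR]; exact q1 x hx
        · rw [if_neg heaR]; exact q2 x hx
      · rw [if_neg haR]
        rcases hy with hy | rfl | rfl
        · rw [if_pos hy]
          have := hneg _ _ (q1 y hy)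
          rwa [neg_sub, neg_sub] at this
        · rw [if_neg haR]; exact ⟨1, by simp⟩
        · rw [if_neg heaR]; exact q3
      · rw [if_neg heaR]
        rcases hy with hy | rfl | rfl
        · rw [if_pos hy]
          have := hneg _ _ (q2 y hy)
          rwa [neg_sub, neg_sub] at this
        · rw [if_neg haR]
          have := hneg _ _ q3
          rwa [neg_sub, neg_sub] at this
        · rw [if_neg heaR]; exact ⟨1, by simp⟩)
  have hgR : R ≤ fx p V g := by
    intro r hr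
    have := hg r (Or.inl hr)
    rw [if_pos hr] at this
    exact mem_fx.2 this
  have hga : g • a = -a := by
    have := hg a (Or.inr (Or.inl rfl))
    rwa [if_neg haR] at this
  have hgea : g • (e • a) = -(e • a) := by
    have := hg _ (Or.inr (Or.inr rfl))
    rw [if_neg heaR, smul_neg] at this
    exact neg_injective this
  have hMk2 : bk p V k2 ≤ M := by
    intro w hw
    rw [mem_bk_conj] at hw
    have : e • (e⁻¹ • w) ∈ M := heM _ (Submodule.mem_sup_left hw)
    rwa [smul_inv_smul] at this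
  have hek_nc : e * k ≠ k * e := by
    intro h4
    rw [he, mul_assoc] at h4
    exact h.nc (mul_left_cancel h4).symm
  have hkk2 : k ≠ k2 := by
    intro h3
    apply hek_nc
    rw [hk2] at h3
    exact (eq_mul_inv_iff_mul_eq.1 h3).symm
  have hk2k : k2 * k = e * e := by
    have : e⁻¹ * k = k * e := hke.symm
    rw [hk2, mul_assoc, this, mul_assoc, ← mul_assoc k k e, r3 hb h.ck.1, one_mul]
  have hdis : ∀ κ : H, ∀ b ∈ bk p V κ, b ∈ fx p V κ → b = 0 := fun κ b hb1 hb2 =>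
    disj (cop_odd hb h2 κ) hb1 hb2
  have hgg : g * g = 1 := by
    by_contra hgg1
    have hRgg : R ≤ fx p V (g * g) := fun x hx => mem_fx_mul (hgR hx) (hgR hx)
    have hgga : (g * g) • a = a := by rw [mul_smul, hga, smul_neg, hga, neg_neg]
    have hggea : (g * g) • (e • a) = e • a := by rw [mul_smul, hgea, smul_neg, hgea, neg_neg]
    have hK : IsK p V d (g * g) := s2 hb hd h hgg1 hRgg
      (fun h1 => haR (by rw [hR, ← h1]; exact mem_fx.2 hgga))
    have c1 := r6 hb h.ck.1 haB ha0 hgga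
    have c2 := r6 hb hK2.1 heaB hea0 hggea
    have n1 : g * g ≠ k := fun h1 => ne_neg h2 ha0 (by rw [← hka, ← h1, hgga])
    have n2 : g * g ≠ k2 := fun h1 => ne_neg h2 hea0 (by rw [← hk2a, ← h1, hggea])
    obtain ⟨w, hw, hw0⟩ := exists_bk_ne (p := p) (V := V) hgg1
    have h3 := r7 hb hK.1 h.ck.1 n1 c1 hw
    have h4 := r7 hb hK.1 hK2.1 n2 c2 hw
    have h5 : (e * e) • w = w := by
      rw [← hk2k]
      exact mem_fx.1 (mem_fx_mul h4 h3)
    exact hw0 (hdis _ w hw (hRgg (fix_sq hb hd h h5)))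
  have hg1 : g ≠ 1 := by
    rintro rfl
    rw [one_smul] at hga
    exact ne_neg h2 ha0 hga
  have hfg : fx p V g = R := by
    by_contra hne
    have hK := s2 hb hd h hg1 hgR hne
    have e1 : g = k := r2 hb hK.1 h.ck.1 (mem_bk_of_neg h2 hga) haB ha0
    have e2 : g = k2 := r2 hb hK.1 hK2.1 (mem_bk_of_neg h2 hgea) heaB hea0
    exact hkk2 (e1.symm.trans e2)
  have hneg : ∀ κ : H, IsK p V d κ → bk p V κ ≤ M → ∀ b ∈ bk p V κ, b ≠ 0 → g • b = -b →
      ∀ x ∈ bk p V κ, g • x = -x := by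
    intro κ hκ hle b hbB hb0 hgb x hx
    have h3 : g * κ * g⁻¹ = κ := by
      refine r2 hb (isR_conj hκ.1 g) hκ.1 (w := -b) ?_ (neg_mem hbB) (neg_ne_zero.2 hb0)
      rw [← hgb]; exact smul_mem_bk_conj hbB
    have h4 : g • x ∈ bk p V κ := smul_mem_bk_of_comm (mul_inv_eq_iff_eq_mul.1 h3) hx
    have h5 : x + g • x = 0 := by
      apply hinf
      · rw [← hfg, mem_fx, smul_add, ← mul_smul, hgg, one_smul, add_comm]
      · exact hle (add_mem hx h4)
    exact eq_neg_of_add_eq_zero_right h5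
  have hMeq : M = bk p V k ⊔ bk p V k2 := by
    symm
    apply Submodule.eq_of_le_of_finrank_eq (sup_le (hM ▸ le_sup_left) hMk2)
    rw [bk_dim hb h.ck.1 hK2.1 hkk2, h.dimM hb, h.ck.2, hK2.2]; ring
  refine ⟨g, hgR, fun x hx => ?_⟩
  rw [hMeq] at hx
  obtain ⟨y, hy, z, hz, rfl⟩ := Submodule.mem_sup.1 hx
  rw [smul_add, hneg k h.ck (hM ▸ le_sup_left) a haB ha0 hga y hy,
    hneg k2 hK2 hMk2 _ heaB hea0 hgea z hz]
  abel

/-- P1: the planes are completely covered -/
lemma p1 (hb : IsBin H V) (hd : MinD p V H d) (h : NC p V d k k') {x : V}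
    (hx : x ∈ bk p V k ⊔ bk p V k') (hx0 : x ≠ 0) :
    ∃ κ : H, IsK p V d κ ∧ x ∈ bk p V κ ∧ bk p V κ ≤ bk p V k ⊔ bk p V k' ∧
      fx p V k ⊓ fx p V k' ≤ fx p V κ := by
  set R := fx p V k ⊓ fx p V k' with hR
  set M := bk p V k ⊔ bk p V k' with hM
  set e := k * k' with he
  have hfe : fx p V e = R := fx_mul hb h.ck.1 h.ck1.1 h.ne
  have hbe : bk p V e = M := bk_mul hb h.ck.1 h.ck1.1 h.ne (h.cop hb)
  have hinf : ∀ x, x ∈ R → x ∈ M → x = 0 := by
    intro x h1 h3
    have : x ∈ R ⊓ M := ⟨h1, h3⟩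
    rw [h.inf hb] at this
    exact this
  have heM : ∀ x ∈ M, e • x ∈ M := by
    intro x hx
    rw [← hbe] at hx ⊢
    exact smul_mem_bk_of_comm rfl hx
  obtain ⟨y, hy, hyx⟩ : ∃ y ∈ M, y - e • y = x := by
    rw [← hbe] at hx
    obtain ⟨v, hv⟩ := mem_bk.1 hx
    obtain ⟨r, hr, m, hm, rfl⟩ := decomp (h.cop hb) v
    refine ⟨m, hbe ▸ hm, ?_⟩
    rw [← hv, smul_add, mem_fx.1 hr]; abel
  obtain ⟨g, hgR, hg1, hg2⟩ := swap hb (R := R) (l := e) hfe.ge (y := y) (by
    by_cases h2 : p = 2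
    · exact ⟨1, by rw [one_smul, ← neg_sub, two_neg p h2]⟩
    · obtain ⟨z, -, hz⟩ := negM hb hd h2 h
      exact ⟨z, by rw [hz _ (hyx ▸ hx), neg_sub]⟩)
  have hey : e • y ≠ y := fun h0 => hx0 (by rw [← hyx, h0, sub_self])
  have hy0 : y ≠ 0 := by
    rintro rfl
    exact hey (smul_zero e)
  have hs0 : y + e • y ≠ 0 := by
    intro h0
    have h1 : e • y = -y := eq_neg_of_add_eq_zero_right h0
    exact hy0 (hinf y (fix_sq hb hd h (y := y) (by
      rw [mul_smul, ← he, h1, smul_neg, h1, neg_neg])) hy)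
  have hsM : y + e • y ∈ M := add_mem hy (heM y hy)
  have hgs : g • (y + e • y) = y + e • y := by rw [smul_add, hg1, hg2, add_comm]
  have hgne1 : g ≠ 1 := by
    rintro rfl
    rw [one_smul] at hg1
    exact hey hg1.symm
  have hK : IsK p V d g := s2 hb hd h hgne1 hgR
    (fun h1 => hs0 (hinf _ (by rw [hR, ← h1]; exact mem_fx.2 hgs) hsM))
  have hxg : x ∈ bk p V g := by
    rw [← hyx, ← hg1]; exact sub_mem_bk g y
  have hgg := r3 hb hK.1
  have heg : (e * g) * (e * g) = 1 := by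
    by_cases h1 : e * g = 1
    · rw [h1, one_mul]
    · have hReg : R ≤ fx p V (e * g) := fun x hx => mem_fx_mul (hfe.ge hx) (hgR hx)
      have h3 : (e * g) • (e • y) = e • y := by rw [mul_smul, hg2]
      have hK2 : IsK p V d (e * g) := s2 hb hd h h1 hReg (fun h4 => by
        have h5 : e • y ∈ R := by rw [hR, ← h4]; exact mem_fx.2 h3
        have h6 := hinf _ h5 (heM y hy)
        exact hy0 ((smul_eq_zero_iff_eq e).1 h6))
      exact r3 hb hK2.1
  have hge : g * e = e⁻¹ * g := by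
    have h3 : g * e * g = e⁻¹ := by
      rw [eq_inv_iff_mul_eq_one]
      have : e * (g * e * g) = 1 := by rw [← heg]; group
      have h4 : g * e * g = e⁻¹ := eq_inv_of_mul_eq_one_right this
      rw [h4, inv_mul_cancel]
    rw [← h3, mul_assoc (g * e), hgg, mul_one]
  refine ⟨g, hK, hxg, ?_, hgR⟩
  intro w hw
  obtain ⟨v, rfl⟩ := mem_bk.1 hw
  obtain ⟨r, hr, m, hm, rfl⟩ := decomp (h.cop hb) v
  have h2 : r + m - g • (r + m) = m - g • m := by
    rw [smul_add, mem_fx.1 (hgR (hfe ▸ hr))]; abel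
  rw [h2, ← hbe]
  exact sub_mem hm (smul_bk_of_inv hge hm)

end

end Cfsg.Agent.H4.Bin
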