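import Cfsg.Agent.H4_Bin4

/-! Binary affine groups V: counting; the trichotomy for `p` odd (helper4, for S5753). -/

set_option autoImplicit false
set_option linter.unusedSectionVars false

namespace Cfsg.Agent.H4.Bin

open Module

variable {p : ℕ} [hp : Fact p.Prime] {V H : Type*} [AddCommGroup V] [Module (ZMod p) V]
  [Group H] [DistribMulAction H V] [FaithfulSMul H V] [Finite V] [Finite H]

lemma card_sub (W : Submodule (ZMod p) V) : (W : Set V).ncard = p ^ finrank (ZMod p) W := by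
  have h := Module.natCard_eq_pow_finrank (K := ZMod p) (V := W)
  rw [Nat.card_zmod] at h
  exact h

variable {d : ℕ}

lemma d_pos {k : H} (h : IsK p V d k) : 0 < d := by
  rw [← h.2, Nat.pos_iff_ne_zero]
  intro h0
  obtain ⟨w, hw, hw0⟩ := exists_bk_ne (p := p) (V := V) h.1.1
  rw [Submodule.finrank_eq_zero] at h0
  rw [h0] at hw
  exact hw0 hw

lemma line_count (hb : IsBin H V) (S : Set V) (u : V)
    (hcov : ∀ x ∈ S, x ≠ 0 ∧ ∃ κ : H, IsK p V d κ ∧ x ∈ bk p V κ ∧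
      (∀ y ∈ bk p V κ, y ≠ 0 → y ∈ S) ∧ κ • u ≠ u) :
    S.ncard = (p ^ d - 1) * {b | b ∈ S ∧ ∃ h : H, h • u = u + b}.ncard := by
  classical
  haveI : Fintype V := Fintype.ofFinite V
  choose! h0 κ hK hx hcl hu using hcov
  set T := {b | b ∈ S ∧ ∃ h : H, h • u = u + b} with hT
  have hmaps : ∀ x ∈ S, κ x • u - u ∈ T := by
    intro x hxS
    have h1 : κ x • u - u ∈ bk p V (κ x) := by
      rw [← neg_sub]; exact neg_mem (sub_mem_bk _ _)
    refine ⟨hcl x hxS _ h1 (sub_ne_zero.2 (hu x hxS)), κ x, ?_⟩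
    abel
  rw [Set.ncard_eq_toFinset_card' S, Set.ncard_eq_toFinset_card' T,
    Finset.card_eq_sum_card_fiberwise (f := fun x => κ x • u - u) (t := T.toFinset)
      (fun x hx => by
        rw [Finset.mem_coe, Set.mem_toFinset] at hx ⊢
        exact hmaps x hx)]
  rw [Finset.sum_const_nat (m := p ^ d - 1), mul_comm]
  intro b hbT
  rw [Set.mem_toFinset] at hbT
  have hbS := hbT.1
  have hfib : (Finset.filter (fun x => κ x • u - u = b) S.toFinset : Finset V) =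
      ((bk p V (κ b) : Set V) \ {0}).toFinset := by
    ext x
    rw [Finset.mem_filter, Set.mem_toFinset, Set.mem_toFinset]
    constructor
    · rintro ⟨hxS, h1⟩
      have h2 : b ∈ bk p V (κ x) := by
        rw [← h1, ← neg_sub]; exact neg_mem (sub_mem_bk _ _)
      have h3 : κ x = κ b := r2 hb (hK x hxS).1 (hK b hbS).1 h2 (hx b hbS) (h0 b hbS)
      refine ⟨?_, h0 x hxS⟩
      rw [← h3]; exact hx x hxS
    · rintro ⟨h1, h2⟩
      have hxS : x ∈ S := hcl b hbS x h1 h2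
      have h3 : κ x = κ b := r2 hb (hK x hxS).1 (hK b hbS).1 (hx x hxS) h1 (h0 x hxS)
      refine ⟨hxS, ?_⟩
      have h4 := r1 hb (hK b hbS).1 (hx b hbS) (h0 b hbS) hbT.2
      rw [h3, h4]; abel
  rw [hfib, ← Set.ncard_eq_toFinset_card', Set.ncard_sdiff_singleton_of_mem (Submodule.zero_mem _),
    card_sub, (hK b hbS).2]

lemma dvd_of_classes (S : Set V) (c : ℕ)
    (hc : ∀ z ∈ S, {z' | z' ∈ S ∧ ∃ h : H, h • z = z'}.ncard = c) : c ∣ S.ncard := by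
  classical
  haveI : Fintype V := Fintype.ofFinite V
  letI := MulAction.orbitRel H V
  rw [Set.ncard_eq_toFinset_card' S,
    Finset.card_eq_sum_card_image (fun x : V => (Quotient.mk (MulAction.orbitRel H V) x)) S.toFinset]
  apply Finset.dvd_sum
  intro q hq
  rw [Finset.mem_image] at hq
  obtain ⟨z, hz, rfl⟩ := hq
  rw [Set.mem_toFinset] at hz
  rw [← hc z hz, Set.ncard_eq_toFinset_card']
  apply dvd_of_eq
  congr 1
  ext x
  rw [Set.mem_toFinset, Finset.mem_filter, Set.mem_toFinset]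
  constructor
  · rintro ⟨h1, h, h2⟩
    refine ⟨h1, Quotient.sound ?_⟩
    exact ⟨h, h2⟩
  · rintro ⟨h1, h2⟩
    refine ⟨h1, ?_⟩
    obtain ⟨h, h3⟩ := Quotient.exact h2
    exact ⟨h, h3⟩

section plane
variable {k k1 : H}

lemma bk_le_of_mem (hb : IsBin H V) (hd : MinD p V H d) (h : NC p V d k k1) {κ : H}
    (hκ : IsK p V d κ) {x : V} (hx : x ∈ bk p V k ⊔ bk p V k1) (hxκ : x ∈ bk p V κ) (hx0 : x ≠ 0) :
    bk p V κ ≤ bk p V k ⊔ bk p V k1 ∧ fx p V k ⊓ fx p V k1 ≤ fx p V κ := by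
  obtain ⟨κ', h1, h2, h3, h4⟩ := p1 hb hd h hx hx0
  have : κ = κ' := r2 hb hκ.1 h1.1 hxκ h2 hx0
  rw [this]
  exact ⟨h3, h4⟩

lemma R_le (hb : IsBin H V) (hd : MinD p V H d) (h : NC p V d k k1) {κ : H}
    (hκ : IsK p V d κ) (hle : bk p V κ ≤ bk p V k ⊔ bk p V k1) :
    fx p V k ⊓ fx p V k1 ≤ fx p V κ := by
  obtain ⟨w, hw, hw0⟩ := exists_bk_ne (p := p) (V := V) hκ.1.1
  exact (bk_le_of_mem hb hd h hκ (hle hw) hw hw0).2

lemma two_lines (hb : IsBin H V) {κ κ' : H} (hκ : IsK p V d κ) (hκ' : IsK p V d κ')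
    (hne : κ ≠ κ') {M : Submodule (ZMod p) V} (hM : finrank (ZMod p) M = 2 * d)
    (h1 : bk p V κ ≤ M) (h2 : bk p V κ' ≤ M) : bk p V κ ⊔ bk p V κ' = M := by
  apply Submodule.eq_of_le_of_finrank_eq (sup_le h1 h2)
  rw [bk_dim hb hκ.1 hκ'.1 hne, hκ.2, hκ'.2, hM]; ring

lemma inf_dim_ge {κ : H} (hκ : IsK p V d κ) (M : Submodule (ZMod p) V) :
    finrank (ZMod p) M ≤ finrank (ZMod p) ↥(M ⊓ fx p V κ) + d := by
  have h1 := Submodule.finrank_sup_add_finrank_inf_eq M (fx p V κ)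
  have h2 := dim_add p V κ
  have h3 := Submodule.finrank_le (M ⊔ fx p V κ)
  rw [hκ.2] at h2
  omega

lemma exists_ne_of_dim {W : Submodule (ZMod p) V} (h : 0 < finrank (ZMod p) W) :
    ∃ x ∈ W, x ≠ 0 := by
  apply Submodule.exists_mem_ne_zero_of_ne_bot
  rintro rfl
  rw [finrank_bot] at h
  exact lt_irrefl _ h

lemma plane_inf (hb : IsBin H V) (hd : MinD p V H d) (h : NC p V d k k1) {k' : H}
    (hk' : IsK p V d k') (h1 : ¬ bk p V k' ≤ bk p V k ⊔ bk p V k1)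
    (h2 : ¬ bk p V k ⊔ bk p V k1 ≤ fx p V k') :
    ∃ k0 : H, IsK p V d k0 ∧ bk p V k0 ≤ bk p V k ⊔ bk p V k1 ∧
      (bk p V k ⊔ bk p V k1) ⊓ fx p V k' = bk p V k0 ∧ k0 * k' = k' * k0 := by
  have hd0 := d_pos hk'
  have e1 := inf_dim_ge hk' (bk p V k ⊔ bk p V k1)
  rw [h.dimM hb] at e1
  obtain ⟨x, ⟨hxM, hxk⟩, hx0⟩ := exists_ne_of_dim
    (W := (bk p V k ⊔ bk p V k1) ⊓ fx p V k') (by omega)
  have key : ∀ x ∈ bk p V k ⊔ bk p V k1, x ∈ fx p V k' → x ≠ 0 → ∃ κ : H, IsK p V d κ ∧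
      x ∈ bk p V κ ∧ bk p V κ ≤ bk p V k ⊔ bk p V k1 ∧ bk p V κ ≤ fx p V k' ∧
      κ * k' = k' * κ := by
    intro x hxM hxk hx0
    obtain ⟨κ, q1, q2, q3, -⟩ := p1 hb hd h hxM hx0
    have q4 := r6 hb q1.1 q2 hx0 (mem_fx.1 hxk)
    have q5 : κ ≠ k' := by
      rintro rfl
      exact h1 q3
    exact ⟨κ, q1, q2, q3, r7 hb q1.1 hk'.1 q5 q4.symm, q4.symm⟩
  obtain ⟨κ, q1, q2, q3, q4, q5⟩ := key x hxM hxk hx0
  refine ⟨κ, q1, q3, ?_, q5⟩
  refine le_antisymm ?_ (le_inf q3 q4)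
  rintro y ⟨hyM, hyk⟩
  by_contra hy
  have hy0 : y ≠ 0 := by
    rintro rfl
    exact hy (Submodule.zero_mem _)
  obtain ⟨κ2, s1, s2, s3, s4, -⟩ := key y hyM hyk hy0
  have hne : κ ≠ κ2 := by
    rintro rfl
    exact hy s2
  apply h2
  rw [← two_lines hb q1 s1 hne (h.dimM hb) q3 s3]
  exact sup_le q4 s4

end plane

section odd

lemma bk_fx_odd (hb : IsBin H V) (h2 : p ≠ 2) {κ : H} {x : V} (h1 : x ∈ bk p V κ)
    (h3 : x ∈ fx p V κ) : x = 0 := disj (cop_odd hb h2 κ) h1 h3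

lemma cover_odd (hb : IsBin H V) (hd : MinD p V H d) (h2 : p ≠ 2) {k0 k0' k' : H}
    (hk0 : IsK p V d k0) (hk0' : IsK p V d k0') (hk' : IsK p V d k')
    (c1 : k0 * k0' = k0' * k0) (n1 : k0' ≠ k0) (c2 : k0 * k' = k' * k0) (n2 : k' ≠ k0)
    (h : NC p V d k0' k')
    (hcov : ∀ x ∈ bk p V k0 ⊔ bk p V k0', x ≠ 0 → ∃ κ : H, IsK p V d κ ∧ x ∈ bk p V κ ∧
      bk p V κ ≤ bk p V k0 ⊔ bk p V k0')
    {x : V} (hx : x ∈ bk p V k0 ⊔ (bk p V k0' ⊔ bk p V k')) (hx0 : x ≠ 0) :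
    ∃ κ : H, IsK p V d κ ∧ x ∈ bk p V κ ∧ bk p V κ ≤ bk p V k0 ⊔ (bk p V k0' ⊔ bk p V k') := by
  have hM'fx : bk p V k0' ⊔ bk p V k' ≤ fx p V k0 :=
    sup_le (r7 hb hk0'.1 hk0.1 n1 c1.symm) (r7 hb hk'.1 hk0.1 n2 c2.symm)
  obtain ⟨x0, hx0B, x', hx', rfl⟩ := Submodule.mem_sup.1 hx
  by_cases hz : x0 = 0
  · rw [hz, zero_add] at hx0 ⊢
    obtain ⟨κ, q1, q2, q3, -⟩ := p1 hb hd h hx' hx0
    exact ⟨κ, q1, q2, q3.trans le_sup_right⟩
  by_contra hnot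
  have key : ∀ t ∈ bk p V k0', t ≠ 0 → x' - t ∈ fx p V k0' := by
    intro t ht ht0
    have hne : x0 + t ≠ 0 := by
      intro h0
      have h3 : x0 ∈ bk p V k0' := by
        rw [eq_neg_of_add_eq_zero_left h0]; exact neg_mem ht
      exact n1 (r2 hb hk0'.1 hk0.1 h3 hx0B hz)
    obtain ⟨μ, q1, q2, q3⟩ := hcov (x0 + t)
      (Submodule.add_mem_sup hx0B ht) hne
    by_cases hs : x' - t = 0
    · exfalso
      apply hnot
      refine ⟨μ, q1, ?_, q3.trans (sup_le_sup_left le_sup_left _)⟩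
      rw [sub_eq_zero] at hs
      rw [hs]; exact q2
    have hxtM : x' - t ∈ bk p V k0' ⊔ bk p V k' := sub_mem hx' (Submodule.mem_sup_left ht)
    obtain ⟨l, s1, s2, s3, -⟩ := p1 hb hd h hxtM hs
    have hcm : μ * l = l * μ := by
      by_contra hnc
      have hNC : NC p V d μ l := ⟨q1, s1, hnc⟩
      have hmem : x0 + x' ∈ bk p V μ ⊔ bk p V l := by
        have : x0 + x' = (x0 + t) + (x' - t) := by abel
        rw [this]
        exact Submodule.add_mem_sup q2 s2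
      obtain ⟨κ, t1, t2, t3, -⟩ := p1 hb hd hNC hmem hx0
      apply hnot
      exact ⟨κ, t1, t2, t3.trans (sup_le (q3.trans (sup_le_sup_left le_sup_left _))
        (s3.trans le_sup_right))⟩
    have hne2 : μ ≠ l := by
      rintro rfl
      have h3 : x0 + t ∈ fx p V k0 := hM'fx (s3 q2)
      have h4 : t ∈ fx p V k0 := hM'fx (Submodule.mem_sup_left ht)
      have h5 : x0 ∈ fx p V k0 := by
        have := sub_mem h3 h4
        rwa [add_sub_cancel_right] at this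
      exact hz (bk_fx_odd hb h2 hx0B h5)
    have h6 : x0 + t ∈ fx p V l := r7 hb q1.1 s1.1 hne2 hcm q2
    have h7 : k0 * l = l * k0 := r6 hb s1.1 s2 hs (mem_fx.1 (hM'fx hxtM))
    have h8 : k0 ≠ l := by
      rintro rfl
      exact hs (bk_fx_odd hb h2 s2 (hM'fx hxtM))
    have h9 : x0 ∈ fx p V l := r7 hb hk0.1 s1.1 h8 h7 hx0B
    have h10 : t ∈ fx p V l := by
      have := sub_mem h6 h9
      rwa [add_sub_cancel_left] at this
    have h11 : l * k0' = k0' * l := r6 hb hk0'.1 ht ht0 (mem_fx.1 h10)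
    have h12 : l ≠ k0' := by
      rintro rfl
      exact ht0 (bk_fx_odd hb h2 ht h10)
    exact r7 hb s1.1 hk0'.1 h12 h11 s2
  obtain ⟨y, hy, hy0⟩ := exists_bk_ne (p := p) (V := V) hk0'.1.1
  have e1 := key y hy hy0
  have e2 := key (-y) (neg_mem hy) (neg_ne_zero.2 hy0)
  have e3 := sub_mem e2 e1
  have e4 : x' - -y - (x' - y) = y + y := by abel
  rw [e4] at e3
  exact hy0 (odd_two p h2 (bk_fx_odd hb h2 (add_mem hy hy) e3))

/-- the class sizes in a completely covered space -/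
lemma class_size (hb : IsBin H V) (h2 : p ≠ 2) {N : Submodule (ZMod p) V}
    (hN : finrank (ZMod p) N = 3 * d)
    (hcov : ∀ x ∈ N, x ≠ 0 → ∃ κ : H, IsK p V d κ ∧ x ∈ bk p V κ ∧ bk p V κ ≤ N) {z : V}
    (hz : z ∈ N) (hz0 : z ≠ 0) :
    {z' | z' ∈ (N : Set V) \ {0} ∧ ∃ h : H, h • z = z'}.ncard = 1 + p ^ (2 * d) := by
  classical
  obtain ⟨l, hl, hzl, hlN⟩ := hcov z hz hz0
  have hd0 := d_pos hl
  have hdimN : finrank (ZMod p) ↥(N ⊓ fx p V l) = 2 * d := by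
    have h1 : bk p V l ⊔ (fx p V l ⊓ N) = (bk p V l ⊔ fx p V l) ⊓ N :=
      sup_inf_assoc_of_le _ hlN |>.symm
    rw [sup_comm (bk p V l), sup_comm (bk p V l), sup_top (cop_odd hb h2 l), top_inf_eq] at h1
    have h3 := Submodule.finrank_sup_add_finrank_inf_eq (fx p V l ⊓ N) (bk p V l)
    have h4 : fx p V l ⊓ N ⊓ bk p V l = ⊥ := by
      rw [eq_bot_iff]
      rintro v ⟨⟨h5, -⟩, h6⟩
      exact bk_fx_odd hb h2 h6 h5
    rw [h1, h4, finrank_bot, hN, hl.2] at h3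
    rw [inf_comm]
    omega
  set S : Set V := (N : Set V) \ (N ⊓ fx p V l : Submodule (ZMod p) V) with hS
  have hcomm : ∀ κ : H, IsK p V d κ → ∀ y ∈ bk p V κ, y ≠ 0 → y ∈ fx p V l →
      bk p V κ ≤ fx p V l ∧ bk p V l ≤ fx p V κ := by
    intro κ hκ y hy hy0 hyl
    have c1 := r6 hb hκ.1 hy hy0 (mem_fx.1 hyl)
    have c2 : l ≠ κ := by
      rintro rfl
      exact hy0 (bk_fx_odd hb h2 hy hyl)
    exact ⟨r7 hb hκ.1 hl.1 c2.symm c1.symm, r7 hb hl.1 hκ.1 c2 c1⟩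
  have hcount := line_count hb (d := d) S z (by
    intro x hx
    have hx0 : x ≠ 0 := by
      rintro rfl
      exact hx.2 (Submodule.zero_mem _)
    obtain ⟨κ, hκ, hxκ, hκN⟩ := hcov x hx.1 hx0
    have hxl : x ∉ fx p V l := fun h => hx.2 ⟨hx.1, h⟩
    refine ⟨hx0, κ, hκ, hxκ, fun y hy hy0 => ⟨hκN hy, fun h => ?_⟩, fun hκz => ?_⟩
    · exact hxl ((hcomm κ hκ y hy hy0 h.2).1 hxκ)
    · have c1 := r6 hb hl.1 hzl hz0 hκz
      have c2 : κ ≠ l := by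
        rintro rfl
        exact hz0 (bk_fx_odd hb h2 hzl (mem_fx.2 hκz))
      exact hxl (r7 hb hκ.1 hl.1 c2 c1 hxκ))
  set T := {b | b ∈ S ∧ ∃ h : H, h • z = z + b} with hT
  have hQ1 : 1 < p ^ d := Nat.one_lt_pow hd0.ne' hp.out.one_lt
  have hTcard : T.ncard = p ^ (2 * d) := by
    have hScard : S.ncard = p ^ (3 * d) - p ^ (2 * d) := by
      rw [hS, Set.ncard_diff (show ((N ⊓ fx p V l : Submodule (ZMod p) V) : Set V) ⊆ N from
        fun x hx => hx.1) (Set.toFinite _), card_sub, card_sub, hN, hdimN]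
    rw [hScard] at hcount
    have h5 : p ^ (3 * d) - p ^ (2 * d) = (p ^ d - 1) * p ^ (2 * d) := by
      rw [Nat.sub_mul, one_mul, ← pow_add, show d + 2 * d = 3 * d by ring]
    rw [h5] at hcount
    exact (Nat.eq_of_mul_eq_mul_left (by omega) hcount).symm
  have hset : {z' | z' ∈ (N : Set V) \ {0} ∧ ∃ h : H, h • z = z'} =
      insert z ((fun b => z + b) '' T) := by
    ext z'
    constructor
    · rintro ⟨⟨h1, -⟩, h, h3⟩
      by_cases hzz : z' = z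
      · exact Or.inl hzz
      right
      refine ⟨z' - z, ⟨⟨sub_mem h1 hz, fun hb4 => ?_⟩, h, by rw [h3]; abel⟩, by
        show z + (z' - z) = z'
        abel⟩
      have hb0 : z' - z ≠ 0 := sub_ne_zero.2 hzz
      obtain ⟨κ, hκ, hxκ, hκN⟩ := hcov (z' - z) (sub_mem h1 hz) hb0
      have h5 := r1 hb hκ.1 hxκ hb0 (z := z) ⟨h, by rw [h3]; abel⟩
      have h6 := (hcomm κ hκ _ hxκ hb0 hb4.2).2 hzl
      rw [mem_fx.1 h6] at h5
      exact hb0 (left_eq_add.1 h5)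
    · rintro (rfl | ⟨b, ⟨hbS, h, hh⟩, rfl⟩)
      · exact ⟨⟨hz, hz0⟩, 1, one_smul _ _⟩
      · refine ⟨⟨add_mem hz hbS.1, ?_⟩, h, hh⟩
        intro h0
        rw [Set.mem_singleton_iff] at h0
        have h0' : z + b = 0 := h0
        rw [h0', smul_eq_zero_iff_eq] at hh
        exact hz0 hh
  rw [hset, Set.ncard_insert_of_notMem, Set.ncard_image_of_injective _ (add_right_injective z),
    hTcard, add_comm]
  rintro ⟨b, ⟨hbS, -⟩, hb0⟩
  have : b = 0 := add_eq_left.1 hb0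
  exact hbS.2 (this ▸ Submodule.zero_mem _)

theorem tri_odd (hb : IsBin H V) (hd : MinD p V H d) (h2 : p ≠ 2) {k k1 k' : H}
    (h : NC p V d k k1) (hk' : IsK p V d k') :
    bk p V k' ≤ bk p V k ⊔ bk p V k1 ∨ bk p V k ⊔ bk p V k1 ≤ fx p V k' := by
  by_contra hcon
  push Not at hcon
  obtain ⟨hc1, hc2⟩ := hcon
  set M := bk p V k ⊔ bk p V k1 with hM
  have hd0 := d_pos hk'
  obtain ⟨k0, hk0, hk0M, hk0i, hk0c⟩ := plane_inf hb hd h hk' hc1 hc2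
  have e1 := inf_dim_ge hk0 M
  rw [h.dimM hb] at e1
  obtain ⟨x, ⟨hxM, hxk⟩, hx0⟩ := exists_ne_of_dim (W := M ⊓ fx p V k0) (by omega)
  obtain ⟨k0', hk0', hxk0', hk0'M, -⟩ := p1 hb hd h hxM hx0
  have c1 : k0 * k0' = k0' * k0 := r6 hb hk0'.1 hxk0' hx0 (mem_fx.1 hxk)
  have n1 : k0' ≠ k0 := by
    rintro rfl
    exact hx0 (bk_fx_odd hb h2 hxk0' hxk)
  have n2 : k' ≠ k0 := by
    rintro rfl
    exact hc1 hk0M
  have hNC : NC p V d k0' k' := by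
    refine ⟨hk0', hk', fun hc => ?_⟩
    have n3 : k0' ≠ k' := by
      rintro rfl
      exact hc1 hk0'M
    have h3 : x ∈ M ⊓ fx p V k' := ⟨hxM, r7 hb hk0'.1 hk'.1 n3 hc hxk0'⟩
    rw [hk0i] at h3
    exact hx0 (bk_fx_odd hb h2 h3 hxk)
  have hMeq : bk p V k0 ⊔ bk p V k0' = M := two_lines hb hk0 hk0' n1.symm (h.dimM hb) hk0M hk0'M
  set N := bk p V k0 ⊔ (bk p V k0' ⊔ bk p V k') with hNdef
  have hcov : ∀ x ∈ N, x ≠ 0 → ∃ κ : H, IsK p V d κ ∧ x ∈ bk p V κ ∧ bk p V κ ≤ N := by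
    intro x hx hx0
    apply cover_odd hb hd h2 hk0 hk0' hk' c1 n1 hk0c n2 hNC _ hx hx0
    intro y hy hy0
    rw [hMeq] at hy ⊢
    obtain ⟨κ, q1, q2, q3, -⟩ := p1 hb hd h hy hy0
    exact ⟨κ, q1, q2, q3⟩
  have hM'fx : bk p V k0' ⊔ bk p V k' ≤ fx p V k0 :=
    sup_le (r7 hb hk0'.1 hk0.1 n1 c1.symm) (r7 hb hk'.1 hk0.1 n2 hk0c.symm)
  have hNdim : finrank (ZMod p) N = 3 * d := by
    have h3 := Submodule.finrank_sup_add_finrank_inf_eq (bk p V k0) (bk p V k0' ⊔ bk p V k')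
    have h4 : bk p V k0 ⊓ (bk p V k0' ⊔ bk p V k') = ⊥ := by
      rw [eq_bot_iff]
      rintro v ⟨h5, h6⟩
      exact bk_fx_odd hb h2 h5 (hM'fx h6)
    rw [h4, finrank_bot, hNC.dimM hb, hk0.2, ← hNdef] at h3
    omega
  have hdvd := dvd_of_classes (H := H) ((N : Set V) \ {0}) (1 + p ^ (2 * d)) (by
    rintro z ⟨hz, hz0⟩
    exact class_size hb h2 hNdim hcov hz hz0)
  rw [Set.ncard_sdiff_singleton_of_mem (Submodule.zero_mem _), card_sub, hNdim] at hdvd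
  have hQ1 : 1 < p ^ d := Nat.one_lt_pow hd0.ne' hp.out.one_lt
  rw [show p ^ (3 * d) = p ^ d * p ^ d * p ^ d by rw [← pow_add, ← pow_add]; congr 1; ring,
    show p ^ (2 * d) = p ^ d * p ^ d by rw [← pow_add]; congr 1; ring] at hdvd
  set Q := p ^ d with hQ
  have h5 : (1 + Q * Q) ∣ (Q * Q * Q - 1) + (Q + 1) := by
    refine ⟨Q, ?_⟩
    have : 1 ≤ Q * Q * Q := Nat.mul_pos (Nat.mul_pos (by omega) (by omega)) (by omega)
    have h6 : (Q * Q * Q - 1) + (Q + 1) = Q * Q * Q + Q := by omega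
    rw [h6]; ring
  have h6 := (Nat.dvd_add_right hdvd).1 h5
  have h7 := Nat.le_of_dvd (by omega) h6
  nlinarith

end odd

end Cfsg.Agent.H4.Bin
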