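import Cfsg.Agent.H4_Bin5

/-! Binary affine groups VI: the trichotomy for `p = 2` (helper4, for S5753). -/

set_option autoImplicit false
set_option linter.unusedSectionVars false

namespace Cfsg.Agent.H4.Bin

open Module

variable {p : ℕ} [hp : Fact p.Prime] {V H : Type*} [AddCommGroup V] [Module (ZMod p) V]
  [Group H] [DistribMulAction H V] [FaithfulSMul H V] [Finite V] [Finite H]

variable {d : ℕ}

lemma comm_le (hb : IsBin H V) (h2 : p = 2) {κ κ' : H} (hκ : IsR p V κ) (hκ' : IsR p V κ')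
    (hc : κ * κ' = κ' * κ) : bk p V κ ≤ fx p V κ' := by
  by_cases hne : κ = κ'
  · rw [← hne]
    intro w hw
    rw [mem_fx, neg_of_bk hb hκ hw, two_neg p h2]
  · exact r7 hb hκ hκ' hne hc

lemma cm (hb : IsBin H V) (h2 : p = 2) {κ κ' : H} (hκ : IsR p V κ) (hκ' : IsR p V κ') {w : V}
    (hw : w ∈ bk p V κ) (hw0 : w ≠ 0) (h : w ∈ fx p V κ') :
    bk p V κ ≤ fx p V κ' ∧ bk p V κ' ≤ fx p V κ := by
  have c := r6 hb hκ hw hw0 (mem_fx.1 h)
  exact ⟨comm_le hb h2 hκ hκ' c.symm, comm_le hb h2 hκ' hκ c⟩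

lemma cm' (hb : IsBin H V) (h2 : p = 2) {κ κ' : H} (hκ : IsR p V κ) (hκ' : IsR p V κ')
    (h : bk p V κ ≤ fx p V κ') : bk p V κ' ≤ fx p V κ := by
  obtain ⟨w, hw, hw0⟩ := exists_bk_ne (p := p) (V := V) hκ.1
  exact (cm hb h2 hκ hκ' hw hw0 (h hw)).2

lemma nc_of (hb : IsBin H V) (h2 : p = 2) {κ κ' : H} (hκ : IsK p V d κ) (hκ' : IsK p V d κ')
    (h : ¬ bk p V κ ≤ fx p V κ') : NC p V d κ κ' :=
  ⟨hκ, hκ', fun hc => h (comm_le hb h2 hκ.1 hκ'.1 hc)⟩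

lemma M_inf (hb : IsBin H V) (h2 : p = 2) (hd : MinD p V H d) {k k1 κ : H}
    (h : NC p V d k k1) (hκ : IsK p V d κ) (hle : bk p V κ ≤ bk p V k ⊔ bk p V k1) :
    (bk p V k ⊔ bk p V k1) ⊓ fx p V κ = bk p V κ := by
  have hR := R_le hb hd h hκ hle
  have h3 := (isK_two hb h2 hd h hκ.1 hR).2
  apply le_antisymm
  · rintro x ⟨hxM, hxκ⟩
    rw [h3] at hxκ
    obtain ⟨r, hr, b, hb1, rfl⟩ := Submodule.mem_sup.1 hxκ
    have hrM : r ∈ bk p V k ⊔ bk p V k1 := by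
      have := sub_mem hxM (hle hb1)
      rwa [add_sub_cancel_right] at this
    have : r ∈ (fx p V k ⊓ fx p V k1) ⊓ (bk p V k ⊔ bk p V k1) := ⟨hr, hrM⟩
    rw [h.inf hb] at this
    rw [(Submodule.mem_bot _).1 this, zero_add]
    exact hb1
  · exact le_inf hle (comm_le hb h2 hκ.1 hκ.1 rfl)

lemma good (hb : IsBin H V) (h2 : p = 2) (hd : MinD p V H d) {a b c : H}
    (ha : IsK p V d a) (hbb : IsK p V d b) (hc : IsK p V d c) (hab : a * b = b * a) (hne : a ≠ b)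
    (hac : a * c ≠ c * a) (hbc : b * c ≠ c * b) {x y z : V} (hx : x ∈ bk p V a)
    (hy : y ∈ bk p V b) (hz : z ∈ bk p V c) (hz0 : z ≠ 0) :
    ∃ κ : H, IsK p V d κ ∧ x + y + z ∈ bk p V κ ∧
      bk p V κ ≤ bk p V a ⊔ bk p V b ⊔ bk p V c := by
  have hNC : NC p V d a c := ⟨ha, hc, hac⟩
  have hxz0 : x + z ≠ 0 := by
    intro h0
    apply hNC.ne
    refine r2 hb ha.1 hc.1 (w := z) ?_ hz hz0
    rw [eq_neg_of_add_eq_zero_right h0]; exact neg_mem hx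
  obtain ⟨e, q1, q2, q3, -⟩ := p1 hb hd hNC (Submodule.add_mem_sup hx hz) hxz0
  have hNC2 : NC p V d e b := by
    apply nc_of hb h2 q1 hbb
    intro hle
    have h3 := hle q2
    have h4 : x ∈ fx p V b := comm_le hb h2 ha.1 hbb.1 hab hx
    have h5 : z ∈ fx p V b := by
      have := sub_mem h3 h4
      rwa [add_sub_cancel_left] at this
    exact hbc (r6 hb hc.1 hz hz0 (mem_fx.1 h5))
  have hmem : x + y + z ∈ bk p V e ⊔ bk p V b := by
    have : x + y + z = (x + z) + y := by abel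
    rw [this]
    exact Submodule.add_mem_sup q2 hy
  have h0 : x + y + z ≠ 0 := by
    intro h0
    have h1 : (x + z) = -y := by
      rw [← add_eq_zero_iff_eq_neg, ← h0]; abel
    apply hNC2.ne
    refine r2 hb q1.1 hbb.1 (w := x + z) q2 ?_ hxz0
    rw [h1]; exact neg_mem hy
  obtain ⟨κ, t1, t2, t3, -⟩ := p1 hb hd hNC2 hmem h0
  refine ⟨κ, t1, t2, t3.trans (sup_le (q3.trans ?_) ?_)⟩
  · exact sup_le (le_sup_left.trans le_sup_left) le_sup_right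
  · exact le_sup_right.trans le_sup_left

/-- the key counting step: `Z` is contained in the translation set of `u` -/
lemma tu_step (hb : IsBin H V) (h2 : p = 2) {P Z : Submodule (ZMod p) V} (hZP : Z ≤ P)
    (hP : finrank (ZMod p) P = 2 * d) (hZ : finrank (ZMod p) Z = d) (hd0 : 0 < d) (u : V)
    (hcov : ∀ x ∈ P, x ∉ Z → ∃ κ : H, IsK p V d κ ∧ x ∈ bk p V κ ∧ bk p V κ ≤ P ∧
      (∀ y ∈ bk p V κ, y ∈ Z → y = 0) ∧ P ≤ fx p V κ ∧ u ∉ fx p V κ) {z : V} (hz : z ∈ Z) :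
    ∃ h : H, h • u = u + z := by
  classical
  set S : Set V := (P : Set V) \ Z with hS
  have hcount := line_count hb (d := d) S u (by
    rintro x ⟨hxP, hxZ⟩
    obtain ⟨κ, q1, q2, q3, q4, q5, q6⟩ := hcov x hxP hxZ
    refine ⟨fun h0 => hxZ (h0 ▸ Z.zero_mem), κ, q1, q2, fun y hy hy0 => ⟨q3 hy, fun h => ?_⟩,
      fun h => q6 (mem_fx.2 h)⟩
    exact hy0 (q4 y hy h))
  set T := {b | b ∈ S ∧ ∃ h : H, h • u = u + b} with hT
  have hQ1 : 1 < p ^ d := Nat.one_lt_pow hd0.ne' hp.out.one_lt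
  have hTcard : T.ncard = p ^ d := by
    have hScard : S.ncard = p ^ (2 * d) - p ^ d := by
      rw [hS, Set.ncard_sdiff (show (Z : Set V) ⊆ P from hZP) (Set.toFinite _), card_sub,
        card_sub, hP, hZ]
    rw [hScard] at hcount
    have h5 : p ^ (2 * d) - p ^ d = (p ^ d - 1) * p ^ d := by
      rw [Nat.sub_mul, one_mul, ← pow_add, show d + d = 2 * d by ring]
    rw [h5] at hcount
    exact (Nat.eq_of_mul_eq_mul_left (by omega) hcount).symm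
  let A : AddSubgroup V :=
    { carrier := {t | t ∈ P ∧ ∃ h : H, P ≤ fx p V h ∧ h • u = u + t}
      add_mem' := by
        rintro s t ⟨hs, h, h1, h3⟩ ⟨ht, g, g1, g3⟩
        refine ⟨add_mem hs ht, h * g, fun x hx => mem_fx_mul (h1 hx) (g1 hx), ?_⟩
        rw [mul_smul, g3, smul_add, h3, mem_fx.1 (h1 ht)]; abel
      zero_mem' := ⟨P.zero_mem, 1, fun x _ => mem_fx.2 (one_smul _ _), by simp⟩
      neg_mem' := by
        intro t ht
        rwa [two_neg p h2] }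
  set W := AddSubgroup.toZModSubmodule p A with hW
  have hWmem : ∀ t, t ∈ W ↔ t ∈ P ∧ ∃ h : H, P ≤ fx p V h ∧ h • u = u + t := fun t => Iff.rfl
  have hTW : T = (W : Set V) \ (W ⊓ Z : Submodule (ZMod p) V) := by
    ext t
    constructor
    · rintro ⟨⟨htP, htZ⟩, h3⟩
      obtain ⟨κ, q1, q2, q3, q4, q5, q6⟩ := hcov t htP htZ
      have ht0 : t ≠ 0 := fun h0 => htZ (h0 ▸ Z.zero_mem)
      exact ⟨⟨htP, κ, q5, r1 hb q1.1 q2 ht0 h3⟩, fun h => htZ h.2⟩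
    · rintro ⟨ht1, ht2⟩
      obtain ⟨htP, h, h3, h4⟩ := (hWmem t).1 ht1
      exact ⟨⟨htP, fun htZ => ht2 ⟨ht1, htZ⟩⟩, h, h4⟩
  have hcardW : p ^ finrank (ZMod p) W = p ^ finrank (ZMod p) ↥(W ⊓ Z) + p ^ d := by
    rw [← hTcard, hTW, ← card_sub, ← card_sub, Set.ncard_sdiff
      (show ((W ⊓ Z : Submodule (ZMod p) V) : Set V) ⊆ W from fun x hx => hx.1) (Set.toFinite _)]
    have := Set.ncard_le_ncard
      (show ((W ⊓ Z : Submodule (ZMod p) V) : Set V) ⊆ W from fun x hx => hx.1) (Set.toFinite _)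
    omega
  have hle : finrank (ZMod p) ↥(W ⊓ Z) ≤ d := by
    rw [← hZ]; exact Submodule.finrank_mono inf_le_right
  have heq : finrank (ZMod p) ↥(W ⊓ Z) = d := by
    by_contra hne
    have hlt : finrank (ZMod p) ↥(W ⊓ Z) < d := lt_of_le_of_ne hle hne
    have h3 : p ^ finrank (ZMod p) ↥(W ⊓ Z) < p ^ d := Nat.pow_lt_pow_right hp.out.one_lt hlt
    have h4 : 0 < p ^ finrank (ZMod p) ↥(W ⊓ Z) := Nat.pow_pos hp.out.pos
    have h5 : p ^ d < p ^ finrank (ZMod p) W := by omega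
    have h6 : p ^ finrank (ZMod p) W < p ^ (d + 1) := by
      rw [hcardW, pow_succ]
      have : p ^ d * p = p ^ d * 2 := by rw [h2]
      omega
    have h7 := (Nat.pow_lt_pow_iff_right hp.out.one_lt).1 h5
    have h8 := (Nat.pow_lt_pow_iff_right hp.out.one_lt).1 h6
    omega
  have hWZ : W ⊓ Z = Z := Submodule.eq_of_le_of_finrank_eq inf_le_right (by rw [heq, hZ])
  have hzW : z ∈ W := by
    have : z ∈ W ⊓ Z := by rw [hWZ]; exact hz
    exact this.1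
  obtain ⟨-, h, -, h3⟩ := (hWmem z).1 hzW
  exact ⟨h, h3⟩

theorem tri_two (hb : IsBin H V) (hd : MinD p V H d) (h2 : p = 2) {k k1 k' : H}
    (h : NC p V d k k1) (hk' : IsK p V d k') :
    bk p V k' ≤ bk p V k ⊔ bk p V k1 ∨ bk p V k ⊔ bk p V k1 ≤ fx p V k' := by
  classical
  by_contra hcon
  push Not at hcon
  obtain ⟨hc1, hc2⟩ := hcon
  set M := bk p V k ⊔ bk p V k1 with hM
  have hMdim : finrank (ZMod p) M = 2 * d := h.dimM hb
  have hd0 := d_pos hk'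
  obtain ⟨k0, hk0, hk0M, hk0i, hk0c⟩ := plane_inf hb hd h hk' hc1 hc2
  have hself : ∀ κ : H, IsK p V d κ → bk p V κ ≤ fx p V κ := fun κ hκ =>
    comm_le hb h2 hκ.1 hκ.1 rfl
  have hMi : ∀ κ : H, IsK p V d κ → bk p V κ ≤ M → M ⊓ fx p V κ = bk p V κ := fun κ hκ hle =>
    M_inf hb h2 hd h hκ hle
  have hline : ∀ κ κ' : H, IsK p V d κ → IsK p V d κ' → bk p V κ ≤ bk p V κ' → κ = κ' := by
    intro κ κ' hκ hκ' hle
    obtain ⟨w, hw, hw0⟩ := exists_bk_ne (p := p) (V := V) hκ.1.1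
    exact r2 hb hκ.1 hκ'.1 hw (hle hw) hw0
  obtain ⟨κ0, hκ0, hκ0M, hκ0ne⟩ : ∃ κ0 : H, IsK p V d κ0 ∧ bk p V κ0 ≤ M ∧ κ0 ≠ k0 := by
    by_cases hkk : k = k0
    · exact ⟨k1, h.ck1, le_sup_right, fun h3 => h.ne (hkk.trans h3.symm)⟩
    · exact ⟨k, h.ck, le_sup_left, hkk⟩
  have hNC0 : NC p V d k0 κ0 := by
    apply nc_of hb h2 hk0 hκ0
    intro hle
    have h3 : bk p V k0 ≤ bk p V κ0 := by
      rw [← hMi κ0 hκ0 hκ0M]; exact le_inf hk0M hle
    exact hκ0ne (hline _ _ hk0 hκ0 h3).symm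
  have hNC1 : NC p V d κ0 k' := by
    apply nc_of hb h2 hκ0 hk'
    intro hle
    have h3 : bk p V κ0 ≤ bk p V k0 := by
      rw [← hk0i]; exact le_inf hκ0M hle
    exact hκ0ne (hline _ _ hκ0 hk0 h3)
  have hMeq : bk p V k0 ⊔ bk p V κ0 = M := two_lines hb hk0 hκ0 hκ0ne.symm hMdim hk0M hκ0M
  have hMk' : M ⊓ bk p V k' = ⊥ := by
    rw [eq_bot_iff]
    rintro v ⟨h3, h4⟩
    by_contra h0
    exact hc1 (bk_le_of_mem hb hd h hk' h3 h4 h0).1
  set N := M ⊔ bk p V k' with hN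
  have hNdim : finrank (ZMod p) N = 3 * d := by
    have h3 := Submodule.finrank_sup_add_finrank_inf_eq M (bk p V k')
    rw [hMk', finrank_bot, hMdim, hk'.2, ← hN] at h3
    omega
  have hk0k' : k0 ≠ k' := by
    rintro rfl
    exact hc1 hk0M
  set N0 := bk p V k0 ⊔ bk p V k' with hN0
  have hN0dim : finrank (ZMod p) N0 = 2 * d := by
    rw [hN0, bk_dim hb hk0.1 hk'.1 hk0k', hk0.2, hk'.2]; ring
  have hk'k0 : bk p V k' ≤ fx p V k0 := comm_le hb h2 hk'.1 hk0.1 hk0c.symm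
  have hk0k'le : bk p V k0 ≤ fx p V k' := comm_le hb h2 hk0.1 hk'.1 hk0c
  have hN0N : N0 ≤ N := sup_le (hk0M.trans le_sup_left) le_sup_right
  have hinfN : ∀ κ : H, bk p V k' ≤ fx p V κ → M ⊓ fx p V κ = bk p V k0 →
      N ⊓ fx p V κ ≤ N0 := by
    rintro κ h3 h4 x ⟨hxN, hxκ⟩
    obtain ⟨m, hm, b, hb1, rfl⟩ := Submodule.mem_sup.1 hxN
    have h5 : m ∈ M ⊓ fx p V κ := ⟨hm, by
      have := sub_mem hxκ (h3 hb1)
      rwa [add_sub_cancel_right] at this⟩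
    rw [h4] at h5
    exact Submodule.add_mem_sup h5 hb1
  have hNk' : N ⊓ fx p V k' = N0 :=
    le_antisymm (hinfN k' (hself k' hk') hk0i) (le_inf hN0N (sup_le hk0k'le (hself k' hk')))
  have hNk0 : N ⊓ fx p V k0 = N0 :=
    le_antisymm (hinfN k0 hk'k0 (hMi k0 hk0 hk0M)) (le_inf hN0N (sup_le (hself k0 hk0) hk'k0))
  have hNeq : bk p V k0 ⊔ bk p V k' ⊔ bk p V κ0 = N := by
    rw [hN, ← hMeq, sup_assoc, sup_assoc, sup_comm (bk p V k')]
  -- covering outside `N0`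
  have hcov0 : ∀ x ∈ N, x ∉ N0 → ∃ κ : H, IsK p V d κ ∧ x ∈ bk p V κ ∧ bk p V κ ≤ N := by
    intro x hx hx0
    rw [← hNeq] at hx ⊢
    obtain ⟨y, hy, c, hc, rfl⟩ := Submodule.mem_sup.1 hx
    obtain ⟨a, ha, b, hbb, rfl⟩ := Submodule.mem_sup.1 hy
    have hc0 : c ≠ 0 := by
      rintro rfl
      apply hx0
      rw [add_zero]
      exact hy
    exact good hb h2 hd hk0 hk' hκ0 hk0c hk0k' hNC0.nc hNC1.nc.symm ha hbb hc hc0
  have hdimle : ∀ κ : H, IsK p V d κ → ¬ M ≤ fx p V κ → finrank (ZMod p) ↥(N ⊓ fx p V κ) ≤ 2 * d := by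
    intro κ hκ hnle
    have h3 : finrank (ZMod p) ↥(M ⊓ fx p V κ) = d := by
      by_cases hle : bk p V κ ≤ M
      · rw [hMi κ hκ hle, hκ.2]
      · obtain ⟨κ', q1, -, q3, -⟩ := plane_inf hb hd h hκ hle hnle
        rw [← hM] at q3
        rw [q3, q1.2]
    have h4 := Submodule.finrank_sup_add_finrank_inf_eq (N ⊓ fx p V κ) M
    have h5 : (N ⊓ fx p V κ) ⊔ M ≤ N := sup_le inf_le_left le_sup_left
    have h6 : (N ⊓ fx p V κ) ⊓ M = M ⊓ fx p V κ := by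
      apply le_antisymm
      · rintro x ⟨⟨-, h7⟩, h8⟩
        exact ⟨h8, h7⟩
      · rintro x ⟨h7, h8⟩
        exact ⟨⟨Submodule.mem_sup_left h7, h8⟩, h7⟩
    have h7 := Submodule.finrank_mono h5
    rw [h6, h3, hMdim] at h4
    rw [hNdim] at h7
    omega
  have hκ0N0 : ¬ bk p V κ0 ≤ N0 := by
    intro hle
    rw [← hNk'] at hle
    exact hNC1.nc ((fun hle2 : bk p V κ0 ≤ fx p V k' => by
      obtain ⟨w, hw, hw0⟩ := exists_bk_ne (p := p) (V := V) hκ0.1.1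
      exact (r6 hb hκ0.1 hw hw0 (mem_fx.1 (hle2 hw))).symm) (hle.trans inf_le_right))
  have hκ0N : bk p V κ0 ≤ N := hκ0M.trans le_sup_left
  have hMκ0 : ¬ M ≤ fx p V κ0 := by
    intro hle
    have h3 := hMi κ0 hκ0 hκ0M
    rw [inf_eq_left.2 hle] at h3
    rw [h3, hκ0.2] at hMdim
    omega
  -- the second plane
  obtain ⟨x, hxW, hxN0, hxκ0⟩ : ∃ x ∈ N ⊓ fx p V κ0, x ∉ N0 ∧ x ∉ bk p V κ0 := by
    by_contra hcon
    push Not at hcon
    have h3 : ((N ⊓ fx p V κ0 : Submodule (ZMod p) V).toAddSubgroup : Set V) ⊆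
        (N0.toAddSubgroup : Set V) ∪ ((bk p V κ0).toAddSubgroup : Set V) := by
      intro y hy
      by_cases h4 : y ∈ N0
      · exact Or.inl h4
      · exact Or.inr (hcon y hy h4)
    rcases AddSubgroupClass.subset_union.1 h3 with h4 | h4
    · exact hκ0N0 (fun w hw => h4 (show w ∈ N ⊓ fx p V κ0 from ⟨hκ0N hw, hself κ0 hκ0 hw⟩))
    · have h5 : N ⊓ fx p V κ0 ≤ bk p V κ0 := fun w hw => h4 hw
      have h6 := Submodule.finrank_mono h5
      have h7 := inf_dim_ge hκ0 N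
      rw [hκ0.2] at h6
      omega
  obtain ⟨μ, hμ, hxμ, hμN⟩ := hcov0 x hxW.1 hxN0
  have hx0 : x ≠ 0 := fun h0 => hxN0 (h0 ▸ N0.zero_mem)
  have hμκ0 := cm hb h2 hμ.1 hκ0.1 hxμ hx0 hxW.2
  have hμne : κ0 ≠ μ := by
    rintro rfl
    exact hxκ0 hxμ
  have hμc : κ0 * μ = μ * κ0 := r6 hb hμ.1 hxμ hx0 (mem_fx.1 hxW.2)
  have hμN0 : ¬ bk p V μ ≤ N0 := fun hle => hxN0 (hle hxμ)
  have hμk0 : ¬ bk p V μ ≤ fx p V k0 := by
    intro hle
    apply hμN0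
    rw [← hNk0]; exact le_inf hμN hle
  set N1 := bk p V κ0 ⊔ bk p V μ with hN1
  have hN1N : N1 ≤ N := sup_le hκ0N hμN
  have hN1dim : finrank (ZMod p) N1 = 2 * d := by
    rw [hN1, bk_dim hb hκ0.1 hμ.1 hμne, hκ0.2, hμ.2]; ring
  have hMμ : ¬ M ≤ fx p V μ := by
    intro hle
    exact hμk0 (cm' hb h2 hk0.1 hμ.1 (hk0M.trans hle))
  have hN1κ0 : N ⊓ fx p V κ0 = N1 := by
    have hle : N1 ≤ N ⊓ fx p V κ0 := le_inf hN1N (sup_le (hself κ0 hκ0) hμκ0.1)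
    have h3 := hdimle κ0 hκ0 hMκ0
    have h4 := Submodule.finrank_mono hle
    exact (Submodule.eq_of_le_of_finrank_eq hle (by omega)).symm
  have hN1μ : N ⊓ fx p V μ = N1 := by
    have hle : N1 ≤ N ⊓ fx p V μ := le_inf hN1N (sup_le hμκ0.2 (hself μ hμ))
    have h3 := hdimle μ hμ hMμ
    have h4 := Submodule.finrank_mono hle
    exact (Submodule.eq_of_le_of_finrank_eq hle (by omega)).symm
  have hNC2 : NC p V d μ k0 := nc_of hb h2 hμ hk0 hμk0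
  have hNeq1 : bk p V κ0 ⊔ bk p V μ ⊔ bk p V k0 = N := by
    apply Submodule.eq_of_le_of_finrank_eq (sup_le hN1N (hk0M.trans le_sup_left))
    have h3 := Submodule.finrank_sup_add_finrank_inf_eq N1 (bk p V k0)
    have h4 : N1 ⊓ bk p V k0 = ⊥ := by
      rw [eq_bot_iff]
      rintro v ⟨h5, h6⟩
      by_contra h0
      rw [← hN1κ0] at h5
      exact hNC0.nc (r6 hb hk0.1 h6 h0 (mem_fx.1 h5.2)).symm
    rw [h4, finrank_bot, hN1dim, hk0.2] at h3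
    rw [hNdim]
    omega
  have hcov1 : ∀ x ∈ N, x ∉ N1 → ∃ κ : H, IsK p V d κ ∧ x ∈ bk p V κ ∧ bk p V κ ≤ N := by
    intro x hx hx0
    rw [← hNeq1] at hx ⊢
    obtain ⟨y, hy, c, hc, rfl⟩ := Submodule.mem_sup.1 hx
    obtain ⟨a, ha, b, hbb, rfl⟩ := Submodule.mem_sup.1 hy
    have hc0 : c ≠ 0 := by
      rintro rfl
      apply hx0
      rw [add_zero]
      exact hy
    exact good hb h2 hd hκ0 hμ hk0 hμc hμne hNC0.nc.symm hNC2.nc ha hbb hc hc0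
  set Z := N0 ⊓ N1 with hZ
  have hcov : ∀ x ∈ N, x ∉ Z → ∃ κ : H, IsK p V d κ ∧ x ∈ bk p V κ ∧ bk p V κ ≤ N := by
    intro x hx hxZ
    by_cases h3 : x ∈ N0
    · exact hcov1 x hx (fun h4 => hxZ ⟨h3, h4⟩)
    · exact hcov0 x hx h3
  have hMZ : M ⊓ Z = ⊥ := by
    rw [eq_bot_iff]
    rintro v ⟨h3, h4, h5⟩
    by_contra h0
    have h6 : v ∈ bk p V k0 := by
      rw [← hk0i]; rw [← hNk'] at h4; exact ⟨h3, h4.2⟩
    have h7 : v ∈ bk p V κ0 := by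
      rw [← hMi κ0 hκ0 hκ0M]; rw [← hN1κ0] at h5; exact ⟨h3, h5.2⟩
    exact hκ0ne (r2 hb hκ0.1 hk0.1 h7 h6 h0)
  have hZN : Z ≤ N := inf_le_left.trans hN0N
  have hZdim : finrank (ZMod p) Z = d := by
    have h3 := Submodule.finrank_sup_add_finrank_inf_eq N0 N1
    have h4 := Submodule.finrank_mono (sup_le hN0N hN1N)
    have h5 := Submodule.finrank_sup_add_finrank_inf_eq M Z
    have h6 := Submodule.finrank_mono (sup_le (le_sup_left : M ≤ N) hZN)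
    rw [hMZ, finrank_bot, hMdim] at h5
    rw [hN0dim, hN1dim, ← hZ] at h3
    rw [hNdim] at h4 h6
    omega
  -- a reflection fixing `N` has its commutator space in `Z`
  have hT6 : ∀ κ : H, IsK p V d κ → bk p V κ ≤ N → N ≤ fx p V κ → bk p V κ ≤ Z := by
    intro κ hκ h3 h4
    refine le_inf ?_ ?_
    · rw [← hNk']
      exact le_inf h3 (cm' hb h2 hk'.1 hκ.1 (le_sup_right.trans h4))
    · rw [← hN1κ0]
      exact le_inf h3 (cm' hb h2 hκ0.1 hκ.1 (hκ0N.trans h4))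
  have hT7 : ∀ (P : Submodule (ZMod p) V) (a b : H), IsK p V d a → IsK p V d b →
      P = bk p V a ⊔ bk p V b → N ⊓ fx p V a = P → N ⊓ fx p V b = P → Z ≤ P →
      finrank (ZMod p) P = 2 * d → M ⊔ P = N → ∀ u ∈ N, u ∉ P →
      ∀ x ∈ P, x ∉ Z → ∃ κ : H, IsK p V d κ ∧ x ∈ bk p V κ ∧ bk p V κ ≤ P ∧
      (∀ y ∈ bk p V κ, y ∈ Z → y = 0) ∧ P ≤ fx p V κ ∧ u ∉ fx p V κ := by
    intro P a b ha hbb hPab hPa hPb hZP hPdim hMP u hu huP x hx hxZ
    have hPN : P ≤ N := hPa ▸ inf_le_left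
    obtain ⟨κ, q1, q2, q3⟩ := hcov x (hPN hx) hxZ
    have hx0 : x ≠ 0 := fun h0 => hxZ (h0 ▸ Z.zero_mem)
    have hxa : x ∈ fx p V a := by rw [← hPa] at hx; exact hx.2
    have hxb : x ∈ fx p V b := by rw [← hPb] at hx; exact hx.2
    have ca := cm hb h2 q1.1 ha.1 q2 hx0 hxa
    have cb := cm hb h2 q1.1 hbb.1 q2 hx0 hxb
    have hκP : bk p V κ ≤ P := by rw [← hPa]; exact le_inf q3 ca.1
    have hPκ : P ≤ fx p V κ := by rw [hPab]; exact sup_le ca.2 cb.2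
    have hnN : ¬ N ≤ fx p V κ := fun hle => hxZ (hT6 κ q1 q3 hle q2)
    have hnM : ¬ M ≤ fx p V κ := fun hle => hnN (hMP ▸ sup_le hle hPκ)
    refine ⟨κ, q1, q2, hκP, ?_, hPκ, ?_⟩
    · intro y hy hyZ
      by_contra hy0
      apply hnN
      have h3 : y ∈ fx p V k' := by
        have := hyZ.1; rw [← hNk'] at this; exact this.2
      have h4 : y ∈ fx p V k0 := by
        have := hyZ.1; rw [← hNk0] at this; exact this.2
      have h5 : y ∈ fx p V κ0 := by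
        have := hyZ.2; rw [← hN1κ0] at this; exact this.2
      rw [← hNeq]
      exact sup_le (sup_le (cm hb h2 q1.1 hk0.1 hy hy0 h4).2 (cm hb h2 q1.1 hk'.1 hy hy0 h3).2)
        (cm hb h2 q1.1 hκ0.1 hy hy0 h5).2
    · intro huκ
      have hle : P ≤ N ⊓ fx p V κ := le_inf hPN hPκ
      have h3 := hdimle κ q1 hnM
      have h4 := Submodule.finrank_mono hle
      have h5 := Submodule.eq_of_le_of_finrank_eq hle (by omega)
      apply huP
      rw [h5]; exact ⟨hu, huκ⟩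
  have hMN0 : M ⊔ N0 = N := le_antisymm (sup_le le_sup_left hN0N)
    (sup_le le_sup_left (le_sup_right.trans le_sup_right))
  have hMN1 : M ⊔ N1 = N := by
    refine le_antisymm (sup_le le_sup_left hN1N) ?_
    rw [← hNeq1]
    exact sup_le le_sup_right (hk0M.trans le_sup_left)
  have hfin : ∀ u ∈ N, u ∉ Z → ∀ z ∈ Z, ∃ h : H, h • u = u + z := by
    intro u hu huZ z hz
    by_cases h3 : u ∈ N0
    · have h4 : u ∉ N1 := fun h4 => huZ ⟨h3, h4⟩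
      exact tu_step hb h2 (P := N1) (Z := Z) inf_le_right hN1dim hZdim hd0 u
        (hT7 N1 κ0 μ hκ0 hμ rfl hN1κ0 hN1μ inf_le_right hN1dim hMN1 u hu h4) hz
    · exact tu_step hb h2 (P := N0) (Z := Z) inf_le_left hN0dim hZdim hd0 u
        (hT7 N0 k0 k' hk0 hk' rfl hNk0 hNk' inf_le_left hN0dim hMN0 u hu h3) hz
  -- the final contradiction
  obtain ⟨z, hzZ, hz0⟩ := exists_ne_of_dim (W := Z) (by omega)
  obtain ⟨m0, hm0B, hm00⟩ := exists_bk_ne (p := p) (V := V) hk0.1.1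
  have hm0 : m0 ∈ M := hk0M hm0B
  have hzM : z ∉ M := by
    intro hzM
    have : z ∈ M ⊓ Z := ⟨hzM, hzZ⟩
    rw [hMZ] at this
    exact hz0 this
  have hmzM : m0 + z ∉ M := fun h3 => hzM (by
    have := sub_mem h3 hm0
    rwa [add_sub_cancel_left] at this)
  have hne2 : ∀ m ∈ M, m ≠ m0 + z := fun m hm h3 => hmzM (h3 ▸ hm)
  have hpair : ∀ m ∈ M, m ≠ m0 → ∃ h : H, h • (m - (m0 + z)) = m - m0 := by
    intro m hm hmne
    have h3 : m - m0 ∈ M := sub_mem hm hm0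
    have h4 : m - m0 ∉ Z := by
      intro h4
      have : m - m0 ∈ M ⊓ Z := ⟨h3, h4⟩
      rw [hMZ] at this
      exact hmne (sub_eq_zero.1 this)
    obtain ⟨h, hh⟩ := hfin (m - m0) (Submodule.mem_sup_left h3) h4 (-z) (neg_mem hzZ)
    refine ⟨h⁻¹, ?_⟩
    rw [inv_smul_eq_iff, hh]; abel
  obtain ⟨g, hg⟩ := hb {x | (x ∈ M ∧ x ≠ m0) ∨ x = m0 + z} (fun x => if x = m0 + z then m0 else x)
    (Or.inl ⟨M.zero_mem, hm00.symm⟩) (by
      rw [if_neg (hne2 0 M.zero_mem)]) (by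
      rintro x (⟨hx1, hx2⟩ | rfl) y (⟨hy1, hy2⟩ | rfl)
      · rw [if_neg (hne2 x hx1), if_neg (hne2 y hy1)]
        exact ⟨1, one_smul _ _⟩
      · rw [if_neg (hne2 x hx1), if_pos rfl]
        exact hpair x hx1 hx2
      · rw [if_neg (hne2 y hy1), if_pos rfl]
        obtain ⟨h, hh⟩ := hpair y hy1 hy2
        refine ⟨h, ?_⟩
        rw [← neg_sub, smul_neg, hh, neg_sub]
      · rw [if_pos rfl]
        exact ⟨1, by simp⟩)
  have hg1 : ∀ m ∈ M, m ≠ m0 → g • m = m := by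
    intro m hm hmne
    have := hg m (Or.inl ⟨hm, hmne⟩)
    rwa [if_neg (hne2 m hm)] at this
  have hg2 : g • (m0 + z) = m0 := by
    have := hg (m0 + z) (Or.inr rfl)
    rwa [if_pos rfl] at this
  obtain ⟨w, hw, hw0⟩ := exists_bk_ne (p := p) (V := V) hκ0.1.1
  have hwM : w ∈ M := hκ0M hw
  have hwm0 : w ≠ m0 := by
    rintro rfl
    exact hκ0ne (r2 hb hκ0.1 hk0.1 hw hm0B hm00)
  have hg3 : g • m0 = m0 := by
    have h3 : g • w = w := hg1 w hwM hwm0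
    have h4 : g • (m0 - w) = m0 - w := hg1 _ (sub_mem hm0 hwM) (fun h5 => hw0 (sub_eq_self.1 h5))
    have h5 : m0 = (m0 - w) + w := by abel
    rw [h5, smul_add, h3, h4]
  rw [smul_add, hg3] at hg2
  exact hz0 ((smul_eq_zero_iff_eq g).1 (add_eq_left.1 hg2))

theorem tri (hb : IsBin H V) (hd : MinD p V H d) {k k1 k' : H}
    (h : NC p V d k k1) (hk' : IsK p V d k') :
    bk p V k' ≤ bk p V k ⊔ bk p V k1 ∨ bk p V k ⊔ bk p V k1 ≤ fx p V k' := by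
  by_cases h2 : p = 2
  · exact tri_two hb hd h2 h hk'
  · exact tri_odd hb hd h2 h hk'

end Cfsg.Agent.H4.Bin
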