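import Cfsg.Agent.H4_Bin6

/-! Binary affine groups VII: there is only one block (helper4, for S5753). -/

set_option autoImplicit false
set_option linter.unusedSectionVars false

namespace Cfsg.Agent.H4.Bin

open Module

variable {p : ℕ} [hp : Fact p.Prime] {V H : Type*} [AddCommGroup V] [Module (ZMod p) V]
  [Group H] [DistribMulAction H V] [FaithfulSMul H V] [Finite V] [Finite H]

variable {d : ℕ}

variable (p V H) in
def Irr : Prop := ∀ W : Submodule (ZMod p) V, (∀ h : H, ∀ w ∈ W, h • w ∈ W) → W = ⊥ ∨ W = ⊤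

lemma irr_span (hirr : Irr p V H) {B U : Submodule (ZMod p) V} (hB : ∃ w ∈ B, w ≠ 0)
    (h : ∀ h : H, ∀ w ∈ B, h • w ∈ U) : U = ⊤ := by
  let A : AddSubgroup V :=
    { carrier := {v | ∀ h : H, h • v ∈ U}
      add_mem' := fun ha hb h => by rw [smul_add]; exact add_mem (ha h) (hb h)
      zero_mem' := fun h => by rw [smul_zero]; exact U.zero_mem
      neg_mem' := fun ha h => by rw [smul_neg]; exact neg_mem (ha h) }
  set W := AddSubgroup.toZModSubmodule p A with hW
  have hWmem : ∀ t, t ∈ W ↔ ∀ h : H, h • t ∈ U := fun t => Iff.rfl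
  rcases hirr W (fun h w hw => by
    rw [hWmem] at hw ⊢
    intro g
    rw [← mul_smul]; exact hw _) with h1 | h1
  · exfalso
    obtain ⟨w, hw, hw0⟩ := hB
    have : w ∈ W := fun g => h g w hw
    rw [h1] at this
    exact hw0 this
  · rw [eq_top_iff]
    intro v _
    have : v ∈ W := h1 ▸ Submodule.mem_top
    have := this 1
    rwa [one_smul] at this

/-- `h` stabilises `V1` -/
def Stab (V1 : Submodule (ZMod p) V) (h : H) : Prop := ∀ v ∈ V1, h • v ∈ V1

lemma stab_inv {V1 : Submodule (ZMod p) V} {h : H} (hs : Stab V1 h) : Stab V1 h⁻¹ := by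
  have h1 : ∀ n : ℕ, ∀ v ∈ V1, h ^ n • v ∈ V1 := by
    intro n
    induction n with
    | zero => intro v hv; rw [pow_zero, one_smul]; exact hv
    | succ n ih => intro v hv; rw [pow_succ, mul_smul]; exact ih _ (hs v hv)
  obtain ⟨n, hn⟩ : ∃ n : ℕ, h⁻¹ = h ^ n := by
    refine ⟨orderOf h - 1, (eq_inv_of_mul_eq_one_left ?_).symm⟩
    rw [← pow_succ, Nat.sub_add_cancel (orderOf_pos h), pow_orderOf_eq_one]
  rw [hn]
  exact h1 n

lemma fx_conj_dim (g k : H) :
    finrank (ZMod p) (fx p V (g * k * g⁻¹)) = finrank (ZMod p) (fx p V k) := by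
  have : fx p V (g * k * g⁻¹) = (fx p V k).map
      (AddMonoidHom.toZModLinearMap p (DistribMulAction.toAddMonoidHom V g)) := by
    ext v
    rw [mem_fx_conj, Submodule.mem_map]
    constructor
    · intro h
      exact ⟨_, h, smul_inv_smul g v⟩
    · rintro ⟨w, hw, rfl⟩
      have : g⁻¹ • (g • w) ∈ fx p V k := by rw [inv_smul_smul]; exact hw
      exact this
  rw [this]
  refine (LinearEquiv.finrank_eq (Submodule.equivMapOfInjective _ ?_ _)).symm
  intro a b hab
  exact smul_left_cancel g hab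

lemma exists_max {P : H → Prop} (h : ∃ g, P g) :
    ∃ g, P g ∧ ∀ g', P g' → finrank (ZMod p) (fx p V g') ≤ finrank (ZMod p) (fx p V g) := by
  obtain ⟨g, h1, h2⟩ := Set.exists_max_image {g : H | P g} (fun g => finrank (ZMod p) (fx p V g))
    (Set.toFinite _) h
  exact ⟨g, h1, h2⟩

lemma block_move (hb : IsBin H V) {V1 R1 : Submodule (ZMod p) V} (hsup : R1 ⊔ V1 = ⊤)
    (hinf : ∀ x ∈ V1, x ∈ R1 → x = 0)
    (hdich : ∀ h : H, Stab V1 h ∨ ∀ v ∈ V1, h • v ∈ R1) {g : H} (hg : ¬ Stab V1 g)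
    (hmax : ∀ g' : H, ¬ Stab V1 g' → finrank (ZMod p) (fx p V g') ≤ finrank (ZMod p) (fx p V g))
    {κ : H} {v : V} (hv : v ∈ bk p V κ) (hv1 : v ∈ V1) (hv0 : v ≠ 0)
    (hκR : R1 ≤ fx p V κ) (hκV : bk p V κ ≤ V1) :
    ∃ a ∈ V1, κ • a = a + v ∧ ∀ u ∈ V1, u ∈ fx p V κ → a + v - g • a + g • u ∈ fx p V g := by
  have hgR : ∀ x ∈ V1, g • x ∈ R1 := (hdich g).resolve_left hg
  have hg'R : ∀ x ∈ V1, g⁻¹ • x ∈ R1 := (hdich g⁻¹).resolve_left (fun hs => hg (by
    have := stab_inv hs
    rwa [inv_inv] at this))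
  obtain ⟨a0, ha0⟩ := mem_bk.1 (neg_mem hv)
  have : a0 ∈ R1 ⊔ V1 := by rw [hsup]; trivial
  obtain ⟨r, hr, a, ha, rfl⟩ := Submodule.mem_sup.1 this
  have hκa : κ • a = a + v := by
    have h1 : r + a - κ • (r + a) = a - κ • a := by
      rw [smul_add, mem_fx.1 (hκR hr)]; abel
    rw [h1] at ha0
    rw [← neg_neg v, ← ha0]; abel
  refine ⟨a, ha, hκa, fun u hu huκ => ?_⟩
  set v1 := a + v - g • a + g • u with hv1def
  have hfix : ∀ x ∈ V1, (g * κ * g⁻¹) • x = x := by
    intro x hx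
    rw [mul_smul, mul_smul, mem_fx.1 (hκR (hg'R x hx)), smul_inv_smul]
  have hconj : ∀ x : V, (g * κ * g⁻¹) • (g • x) = g • (κ • x) := by
    intro x
    rw [mul_smul, mul_smul, inv_smul_smul]
  obtain ⟨g', h1, h3, h4⟩ := move1 hb (le_refl (fx p V g)) (v1 := v1) (v2 := v)
    ⟨κ * (g * κ * g⁻¹), by
      have e1 : v1 - v = a - g • a + g • u := by rw [hv1def]; abel
      rw [e1, mul_smul, smul_add, smul_sub, hfix a ha, hconj, hconj, hκa, mem_fx.1 huκ]
      rw [smul_add, smul_sub, mem_fx.1 (hκR (hgR _ (add_mem ha hv1))), mem_fx.1 (hκR (hgR u hu)),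
        hκa, hv1def, smul_add]
      abel⟩
  have h5 : ¬ Stab V1 g' := by
    intro hs
    have h6 := hs v hv1
    rw [h4] at h6
    have h7 := hinf _ h6 (hgR v hv1)
    exact hv0 ((smul_eq_zero_iff_eq g).1 h7)
  have h6 := Submodule.eq_of_le_of_finrank_le h1 (hmax g' h5)
  rw [h6]
  exact mem_fx.2 h3

/-- non-commuting case: one block -/
theorem nc_top (hb : IsBin H V) (hirr : Irr p V H) (hd : MinD p V H d) {k k1 : H}
    (h : NC p V d k k1) : bk p V k ⊔ bk p V k1 = ⊤ := by
  set M := bk p V k ⊔ bk p V k1 with hM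
  set R := fx p V k ⊓ fx p V k1 with hR
  have hinf : ∀ x ∈ M, x ∈ R → x = 0 := by
    intro x h1 h3
    have : x ∈ R ⊓ M := ⟨h3, h1⟩
    rw [h.inf hb] at this
    exact this
  have hd0 := d_pos h.ck
  have hdich : ∀ g : H, Stab M g ∨ ∀ v ∈ M, g • v ∈ R := by
    intro g
    have hc := h.conj g⁻¹
    rw [inv_inv] at hc
    have hcomm : ∀ a b : H, NC p V d a b → ¬ bk p V a ≤ fx p V b := by
      intro a b hab hle
      obtain ⟨w, hw, hw0⟩ := exists_bk_ne (p := p) (V := V) hab.ck.1.1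
      exact hab.nc (r6 hb hab.ck.1 hw hw0 (mem_fx.1 (hle hw))).symm
    rcases tri hb hd h hc.ck with h1 | h1
    · rcases tri hb hd h hc.ck1 with h2 | h2
      · left
        have h3 := two_lines hb hc.ck hc.ck1 hc.ne (h.dimM hb) h1 h2
        intro v hv
        rw [hM, ← h3] at hv
        obtain ⟨x, hx, y, hy, rfl⟩ := Submodule.mem_sup.1 hv
        rw [smul_add]
        refine Submodule.add_mem_sup ?_ ?_
        · have := smul_mem_bk_conj (g := g) hx
          rwa [show g * (g⁻¹ * k * g) * g⁻¹ = k by group] at this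
        · have := smul_mem_bk_conj (g := g) hy
          rwa [show g * (g⁻¹ * k1 * g) * g⁻¹ = k1 by group] at this
      · exact absurd (h1.trans h2) (hcomm _ _ hc)
    · rcases tri hb hd h hc.ck1 with h2 | h2
      · exact absurd (h2.trans h1) (hcomm _ _ hc.symm)
      · right
        intro v hv
        refine ⟨?_, ?_⟩
        · have := smul_mem_fx_conj (g := g) (h1 hv)
          rwa [show g * (g⁻¹ * k * g) * g⁻¹ = k by group] at this
        · have := smul_mem_fx_conj (g := g) (h2 hv)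
          rwa [show g * (g⁻¹ * k1 * g) * g⁻¹ = k1 by group] at this
  have hall : ∀ g : H, Stab M g := by
    by_contra hcon
    push Not at hcon
    obtain ⟨g, hg, hmax⟩ := exists_max (p := p) (V := V) hcon
    obtain ⟨v, hv, hv0⟩ := exists_bk_ne (p := p) (V := V) h.ck.1.1
    obtain ⟨a, ha, -, hfix⟩ := block_move hb (h.sup hb) hinf hdich hg hmax hv
      (Submodule.mem_sup_left hv) hv0 inf_le_left le_sup_left
    have e1 := inf_dim_ge h.ck M
    rw [h.dimM hb] at e1
    obtain ⟨u, ⟨huM, huk⟩, hu0⟩ := exists_ne_of_dim (W := M ⊓ fx p V k) (by omega)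
    have h1 := hfix u huM huk
    have h2 := hfix 0 M.zero_mem (Submodule.zero_mem _)
    have h3 := sub_mem h1 h2
    rw [smul_zero, add_zero, add_sub_cancel_left, mem_fx] at h3
    have h4 : g • u = u := smul_left_cancel g h3
    have h5 : g • u ∈ R := (hdich g).resolve_left hg u huM
    rw [h4] at h5
    exact hu0 (hinf u huM h5)
  rcases hirr M hall with h1 | h1
  · exfalso
    have := h.dimM hb
    rw [← hM, h1, finrank_bot] at this
    omega
  · exact h1

/-- commuting case in odd characteristic: one block -/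
theorem comm_top (hb : IsBin H V) (hirr : Irr p V H) (hd : MinD p V H d) (h2 : p ≠ 2)
    (hall : ∀ a b : H, IsK p V d a → IsK p V d b → a * b = b * a) {k1 : H}
    (hk1 : IsK p V d k1) : bk p V k1 = ⊤ := by
  set V1 := bk p V k1 with hV1
  have hinf : ∀ x ∈ V1, x ∈ fx p V k1 → x = 0 := fun x h1 h3 => bk_fx_odd hb h2 h1 h3
  have hdich : ∀ g : H, Stab V1 g ∨ ∀ v ∈ V1, g • v ∈ fx p V k1 := by
    intro g
    by_cases he : g * k1 * g⁻¹ = k1
    · left
      intro v hv
      have := smul_mem_bk_conj (g := g) hv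
      rwa [he] at this
    · right
      intro v hv
      exact r7 hb (isR_conj hk1.1 g) hk1.1 he (hall _ _ (isK_conj hk1 g) hk1)
        (smul_mem_bk_conj hv)
  have hsing : ∀ g : H, ¬ Stab V1 g → (∀ g' : H, ¬ Stab V1 g' →
      finrank (ZMod p) (fx p V g') ≤ finrank (ZMod p) (fx p V g)) →
      ∀ v ∈ V1, v + g • v ∈ fx p V g := by
    intro g hg hmax v hv
    by_cases hv0 : v = 0
    · rw [hv0, smul_zero, add_zero]; exact Submodule.zero_mem _
    have hvv0 : -(v + v) ≠ 0 := fun h => hv0 (odd_two p h2 (neg_eq_zero.1 h))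
    have hvv : -(v + v) ∈ V1 := neg_mem (add_mem hv hv)
    obtain ⟨a, ha, ha1, hfix⟩ := block_move hb (sup_top (cop_odd hb h2 k1)) hinf hdich hg hmax
      hvv hvv hvv0 le_rfl le_rfl
    have h3 := hfix 0 V1.zero_mem (Submodule.zero_mem _)
    rw [neg_of_bk hb hk1.1 ha] at ha1
    have hav : a = v := by
      have : (v - a) + (v - a) = 0 := by
        have h4 : (v - a) + (v - a) = -a - (a + -(v + v)) := by abel
        rw [h4, ha1, sub_self]
      have := odd_two p h2 this
      exact (sub_eq_zero.1 this).symm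
    rw [hav, smul_zero, add_zero] at h3
    have h5 := neg_mem h3
    have h6 : -(v + -(v + v) - g • v) = v + g • v := by abel
    rwa [h6] at h5
  have hst : ∀ g : H, Stab V1 g := by
    by_contra hcon
    push Not at hcon
    obtain ⟨g, hg, hmax⟩ := exists_max (p := p) (V := V) hcon
    have hg1 : g ≠ 1 := by
      rintro rfl
      exact hg (fun v hv => by rw [one_smul]; exact hv)
    -- conjugates
    have hconjmove : ∀ h : H, ¬ Stab V1 (h⁻¹ * g * h⁻¹⁻¹) → ∀ v ∈ V1,
        h • v + g • (h • v) ∈ fx p V g := by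
      intro h hns v hv
      have h3 := hsing (h⁻¹ * g * h⁻¹⁻¹) hns (fun g' hg' => by
        rw [fx_conj_dim]; exact hmax g' hg') v hv
      have h4 := smul_mem_fx_conj (g := h) h3
      rw [show h * (h⁻¹ * g * h⁻¹⁻¹) * h⁻¹ = g by group, smul_add, ← mul_smul,
        show h * (h⁻¹ * g * h⁻¹⁻¹) = g * h by group, mul_smul] at h4
      exact h4
    obtain ⟨κ, hκ, hgκ⟩ := exists_isR (p := p) (V := V) hg1
    have hcomm : ∀ h : H, κ * (h * k1 * h⁻¹) = (h * k1 * h⁻¹) * κ := by
      intro h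
      by_contra hnc
      have hk1' := isK_conj hk1 h
      have h3 : bk p V κ ⊓ fx p V (h * k1 * h⁻¹) = ⊥ := by
        rw [eq_bot_iff]
        rintro w ⟨hw1, hw2⟩
        by_contra hw0
        exact hnc (r6 hb hκ hw1 hw0 (mem_fx.1 hw2)).symm
      have h4 := Submodule.finrank_sup_add_finrank_inf_eq (bk p V κ) (fx p V (h * k1 * h⁻¹))
      have h5 := dim_add p V (h * k1 * h⁻¹)
      have h6 := Submodule.finrank_le (bk p V κ ⊔ fx p V (h * k1 * h⁻¹))
      rw [h3, finrank_bot] at h4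
      rw [hk1'.2] at h5
      have h7 := hd κ hκ
      exact hnc (hall _ _ ⟨hκ, by omega⟩ hk1')
    obtain ⟨h, hh⟩ : ∃ h : H, h * k1 * h⁻¹ = κ := by
      by_contra hne
      push Not at hne
      apply hκ.1
      apply one_of_fx_top (p := p) (V := V)
      apply irr_span hirr (B := V1) (exists_bk_ne hk1.1.1)
      intro h w hw
      exact r7 hb (isR_conj hk1.1 h) hκ (hne h) (hcomm h).symm (smul_mem_bk_conj hw)
    have hκK : IsK p V d κ := hh ▸ isK_conj hk1 h
    obtain ⟨v, hv, hv0⟩ := exists_bk_ne (p := p) (V := V) hk1.1.1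
    have hhv : h • v ∈ bk p V κ := by rw [← hh]; exact smul_mem_bk_conj hv
    have hhv0 : h • v ≠ 0 := fun h0 => hv0 ((smul_eq_zero_iff_eq h).1 h0)
    have hgc : g * κ = κ * g := by
      by_contra hnc
      have hne : g * κ * g⁻¹ ≠ κ := fun he => hnc (mul_inv_eq_iff_eq_mul.1 he)
      have hK' := isK_conj hκK g
      have hle := r7 hb hK'.1 hκ hne (hall _ _ hK' hκK)
      have h3 : g • (h • v) ∈ bk p V (g * κ * g⁻¹) := smul_mem_bk_conj hhv
      by_cases hs : Stab V1 (h⁻¹ * g * h⁻¹⁻¹)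
      · have h4 := hs v hv
        have h5 : h • ((h⁻¹ * g * h⁻¹⁻¹) • v) ∈ bk p V κ := by
          rw [← hh]; exact smul_mem_bk_conj h4
        rw [← mul_smul, show h * (h⁻¹ * g * h⁻¹⁻¹) = g * h by group, mul_smul] at h5
        exact hne (r2 hb hK'.1 hκ h3 h5 (fun h0 => hhv0 ((smul_eq_zero_iff_eq g).1 h0)))
      · have h4 := hgκ (hconjmove h hs v hv)
        have h5 := hle h3
        have h6 := sub_mem h4 h5
        rw [add_sub_cancel_right] at h6
        exact hhv0 (bk_fx_odd hb h2 hhv h6)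
    have hneg : ∀ b ∈ bk p V κ, g • b = -b := by
      intro b hbB
      by_cases hb0 : b = 0
      · rw [hb0, smul_zero, neg_zero]
      have h3 : g • b ≠ b := fun h4 => hb0 (bk_fx_odd hb h2 hbB (hgκ (mem_fx.2 h4)))
      have h4 : g • b - b ∈ bk p V κ := sub_mem (smul_mem_bk_of_comm hgc hbB) hbB
      have h5 := r1 hb hκ h4 (sub_ne_zero.2 h3) (z := b) ⟨g, by abel⟩
      rw [neg_of_bk hb hκ hbB] at h5
      rw [h5]; abel
    have hns : ¬ Stab V1 (g * κ) := by
      intro hs
      apply hg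
      intro v hv
      have h3 : κ • v ∈ V1 := smul_mem_bk_of_comm (hall _ _ hκK hk1) hv
      have h4 := hs _ h3
      rwa [← mul_smul, mul_assoc, r3 hb hκ, mul_one] at h4
    have hle : fx p V g ≤ fx p V (g * κ) := fun x hx => mem_fx_mul hx (hgκ hx)
    have heq := Submodule.eq_of_le_of_finrank_le hle (hmax _ hns)
    have h3 : h • v ∈ fx p V (g * κ) := by
      rw [mem_fx, mul_smul, neg_of_bk hb hκ hhv, smul_neg, hneg _ hhv, neg_neg]
    rw [← heq] at h3
    exact hhv0 (bk_fx_odd hb h2 hhv (hgκ h3))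
  rcases hirr V1 hst with h1 | h1
  · exfalso
    obtain ⟨v, hv, hv0⟩ := exists_bk_ne (p := p) (V := V) hk1.1.1
    rw [← hV1, h1] at hv
    exact hv0 hv
  · exact h1

lemma dim_one (hirr : Irr p V H) [Nontrivial V]
    (hpm : ∀ (h : H) (v : V), h • v = v ∨ h • v = -v) : finrank (ZMod p) V = 1 := by
  obtain ⟨v, hv0⟩ := exists_ne (0 : V)
  have := irr_span hirr (B := Submodule.span (ZMod p) {v}) (U := Submodule.span (ZMod p) {v})
    ⟨v, Submodule.mem_span_singleton_self v, hv0⟩ (by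
      intro h w hw
      rcases hpm h w with h1 | h1
      · rw [h1]; exact hw
      · rw [h1]; exact neg_mem hw)
  rw [← finrank_top, ← this, finrank_span_singleton hv0]

theorem main1 (hb : IsBin H V) (hirr : Irr p V H) [Nontrivial V] :
    (finrank (ZMod p) V = 1 ∧ Nat.card H ≤ 2) ∨
    ∃ (d : ℕ) (k k1 : H), MinD p V H d ∧ NC p V d k k1 ∧ bk p V k ⊔ bk p V k1 = ⊤ := by
  classical
  by_cases hH : ∀ h : H, h = 1
  · left
    refine ⟨dim_one (H := H) hirr (fun h v => Or.inl (by rw [hH h, one_smul])), ?_⟩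
    have : Subsingleton H := ⟨fun a b => by rw [hH a, hH b]⟩
    rw [Nat.card_of_subsingleton (1 : H)]
    norm_num
  push Not at hH
  obtain ⟨h0, hh0⟩ := hH
  obtain ⟨k0, hk0, -⟩ := exists_isR (p := p) (V := V) hh0
  obtain ⟨k, hk, hmin⟩ := Set.exists_min_image {k : H | IsR p V k}
    (fun k => finrank (ZMod p) (bk p V k)) (Set.toFinite _) ⟨k0, hk0⟩
  set d := finrank (ZMod p) (bk p V k) with hd
  have hD : MinD p V H d := hmin
  have hkK : IsK p V d k := ⟨hk, rfl⟩
  by_cases hall : ∀ a b : H, IsK p V d a → IsK p V d b → a * b = b * a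
  · left
    have h2 : p ≠ 2 := by
      intro h2
      apply hk.1
      apply one_of_fx_top (p := p) (V := V)
      apply irr_span hirr (B := bk p V k) (exists_bk_ne hk.1)
      intro h w hw
      exact comm_le hb h2 (isR_conj hk h) hk (hall _ _ (isK_conj hkK h) hkK) (smul_mem_bk_conj hw)
    have htop := comm_top hb hirr hD h2 hall hkK
    have hneg : ∀ v : V, k • v = -v := fun v => neg_of_bk hb hk (htop ▸ Submodule.mem_top)
    have hor : ∀ h : H, h = 1 ∨ h = k := by
      intro h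
      by_cases hh : h = 1
      · exact Or.inl hh
      right
      obtain ⟨κ, hκ, hle⟩ := exists_isR (p := p) (V := V) hh
      obtain ⟨w, hw, hw0⟩ := exists_bk_ne (p := p) (V := V) hκ.1
      have hκk : κ = k := r2 hb hκ hk hw (htop ▸ Submodule.mem_top) hw0
      apply eq_of_smul_eq_smul (α := V)
      intro v
      by_cases hv : v = 0
      · rw [hv, smul_zero, smul_zero]
      have h3 : h • v ≠ v := by
        intro h3
        have h4 := hle (mem_fx.2 h3)
        rw [hκk] at h4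
        exact hv (bk_fx_odd hb h2 (htop ▸ Submodule.mem_top) h4)
      have h4 := r1 hb hk (w := h • v - v) (z := v) (htop ▸ Submodule.mem_top)
        (sub_ne_zero.2 h3) ⟨h, by abel⟩
      rw [h4]; abel
    refine ⟨dim_one (H := H) hirr (fun h v => ?_), ?_⟩
    · rcases hor h with rfl | rfl
      · exact Or.inl (one_smul _ _)
      · exact Or.inr (hneg v)
    · have h3 : (Set.univ : Set H) ⊆ {1, k} := fun h _ => hor h
      rw [← Set.ncard_univ]
      calc (Set.univ : Set H).ncard ≤ ({1, k} : Set H).ncard := Set.ncard_le_ncard h3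
        _ ≤ ({k} : Set H).ncard + 1 := Set.ncard_insert_le _ _
        _ = 2 := by rw [Set.ncard_singleton]
  · right
    push Not at hall
    obtain ⟨a, b, ha, hbb, hab⟩ := hall
    exact ⟨d, a, b, hD, ⟨ha, hbb, hab⟩, nc_top hb hirr hD ⟨ha, hbb, hab⟩⟩

end Cfsg.Agent.H4.Bin
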