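import Cfsg.Agent.H4_Bin7

/-! Binary affine groups VIII: the final plane (helper4, for S5753). -/

set_option autoImplicit false
set_option linter.unusedSectionVars false

namespace Cfsg.Agent.H4.Bin

open Module

variable {p : ℕ} [hp : Fact p.Prime] {V H : Type*} [AddCommGroup V] [Module (ZMod p) V]
  [Group H] [DistribMulAction H V] [FaithfulSMul H V] [Finite V] [Finite H]

variable {d : ℕ}

section plane
variable {k k1 : H}

lemma top_dim (hb : IsBin H V) (h : NC p V d k k1) (htop : bk p V k ⊔ bk p V k1 = ⊤) :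
    finrank (ZMod p) V = 2 * d := by
  have := h.dimM hb
  rw [htop, finrank_top] at this
  exact this

lemma top_R (hb : IsBin H V) (h : NC p V d k k1) (htop : bk p V k ⊔ bk p V k1 = ⊤) :
    fx p V k ⊓ fx p V k1 = ⊥ := by
  have := h.inf hb
  rwa [htop, inf_top_eq] at this

/-- distinct elements of `𝒦` have no common fixed vectors -/
lemma fx_disj (hb : IsBin H V) (h : NC p V d k k1) (htop : bk p V k ⊔ bk p V k1 = ⊤) {κ l : H}
    (hκ : IsK p V d κ) (hl : IsK p V d l) (hne : κ ≠ l) {v : V} (h1 : v ∈ fx p V κ)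
    (h2 : v ∈ fx p V l) : v = 0 := by
  have hdim := top_dim hb h htop
  have hcop : (orderOf (κ * l)).Coprime p → v = 0 := by
    intro hc
    have e1 := pair_dim hb hκ.1 hl.1 hne hc
    rw [hκ.2, hl.2, hdim] at e1
    have e2 : finrank (ZMod p) ↥(fx p V κ ⊓ fx p V l) = 0 := by omega
    rw [Submodule.finrank_eq_zero] at e2
    have : v ∈ fx p V κ ⊓ fx p V l := ⟨h1, h2⟩
    rw [e2] at this
    exact this
  by_cases hc : κ * l = l * κ
  · by_cases hp2 : p = 2
    · exfalso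
      apply hκ.1.1
      apply one_of_fx_top (p := p) (V := V)
      rw [eq_top_iff]
      have e3 := two_lines hb hκ hl hne (M := ⊤) (by rw [finrank_top, hdim]) le_top le_top
      rw [← e3]
      exact sup_le (comm_le hb hp2 hκ.1 hκ.1 rfl) (comm_le hb hp2 hl.1 hκ.1 hc.symm)
    · exact hcop (cop_odd hb hp2 _)
  · exact hcop (cop_nc hb hκ.1 hl.1 hc)

lemma cover_top (hb : IsBin H V) (hd : MinD p V H d) (h : NC p V d k k1)
    (htop : bk p V k ⊔ bk p V k1 = ⊤) {x : V} (hx : x ≠ 0) : ∃ κ : H, IsK p V d κ ∧ x ∈ bk p V κ := by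
  obtain ⟨κ, q1, q2, -, -⟩ := p1 hb hd h (x := x) (htop ▸ Submodule.mem_top) hx
  exact ⟨κ, q1, q2⟩

lemma isK_of_fix (hb : IsBin H V) (hd : MinD p V H d) (h : NC p V d k k1)
    (htop : bk p V k ⊔ bk p V k1 = ⊤) {l : H} (hl : l ≠ 1) {v : V} (hv : v ≠ 0) (hlv : l • v = v) :
    IsK p V d l := by
  apply s2 hb hd h hl
  · rw [top_R hb h htop]; exact bot_le
  · rw [top_R hb h htop]
    intro h0
    have : v ∈ fx p V l := mem_fx.2 hlv
    rw [h0] at this
    exact hv this

lemma exists_fx (hb : IsBin H V) (h : NC p V d k k1)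
    (htop : bk p V k ⊔ bk p V k1 = ⊤) {κ : H} (hκ : IsK p V d κ) : ∃ v ∈ fx p V κ, v ≠ 0 := by
  apply exists_ne_of_dim
  have e1 := dim_add p V κ
  rw [hκ.2, top_dim hb h htop] at e1
  have := d_pos hκ
  omega

/-- products of two elements of `𝒦` are not in `𝒦` -/
lemma mul_notK (hb : IsBin H V) (h : NC p V d k k1)
    (htop : bk p V k ⊔ bk p V k1 = ⊤) {κ l : H} (hκ : IsK p V d κ) (hl : IsK p V d l) :
    ¬ IsK p V d (κ * l) := by
  intro hK
  by_cases hne : κ = l
  · rw [hne, r3 hb hl.1] at hK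
    exact hK.1.1 rfl
  · obtain ⟨v, hv, hv0⟩ := exists_fx hb h htop hK
    have := r5 hb hκ.1 hl.1 hne (mem_fx.1 hv)
    exact hv0 (fx_disj hb h htop hκ hl hne this.1 this.2)

lemma mul_isK (hb : IsBin H V) (hd : MinD p V H d) (h : NC p V d k k1)
    (htop : bk p V k ⊔ bk p V k1 = ⊤) {g κ : H} (hg : ¬ IsK p V d g) (hκ : IsK p V d κ) :
    IsK p V d (g * κ) := by
  by_cases hg1 : g = 1
  · rw [hg1, one_mul]; exact hκ
  obtain ⟨v, hv, hv0⟩ := exists_fx hb h htop hκ
  have hgv : g • v ≠ v := fun h0 => hg (isK_of_fix hb hd h htop hg1 hv0 h0)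
  obtain ⟨l, hl, hlw⟩ := cover_top hb hd h htop (sub_ne_zero.2 hgv)
  have h3 := r1 hb hl.1 hlw (sub_ne_zero.2 hgv) (z := v) ⟨g, by abel⟩
  have h4 : l • v = g • v := by rw [h3]; abel
  have h5 : (g⁻¹ * l) • v = v := by rw [mul_smul, h4, inv_smul_smul]
  have h6 : g⁻¹ * l ≠ 1 := fun h0 => hg (by rw [inv_mul_eq_one.1 h0]; exact hl)
  have h7 := isK_of_fix hb hd h htop h6 hv0 h5
  have h8 : g⁻¹ * l = κ := by
    by_contra hne
    exact hv0 (fx_disj hb h htop h7 hκ hne (mem_fx.2 h5) hv)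
  have h9 : g * κ = l := by rw [← h8, mul_inv_cancel_left]
  rw [h9]; exact hl

lemma inv_isK (hb : IsBin H V) {g : H} (hg : IsK p V d g) : IsK p V d g⁻¹ := by
  rw [r3' hb hg.1]; exact hg

/-- the rotation subgroup -/
def rot (hb : IsBin H V) (hd : MinD p V H d) (h : NC p V d k k1)
    (htop : bk p V k ⊔ bk p V k1 = ⊤) : Subgroup H where
  carrier := {g | ¬ IsK p V d g}
  one_mem' := fun hK => hK.1.1 rfl
  inv_mem' := by
    intro g hg hK
    apply hg
    have := inv_isK hb hK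
    rwa [inv_inv] at this
  mul_mem' := by
    intro a b ha hbb
    have h1 := mul_isK hb hd h htop ha h.ck
    have h2 : IsK p V d (k * b) := by
      have h3 : ¬ IsK p V d b⁻¹ := fun hK => hbb (by
        have := inv_isK hb hK
        rwa [inv_inv] at this)
      have h4 := inv_isK hb (mul_isK hb hd h htop h3 h.ck)
      rwa [mul_inv_rev, inv_inv, r3' hb h.ck.1] at h4
    have h5 := mul_notK hb h htop h1 h2
    rwa [show a * k * (k * b) = a * b by
      rw [mul_assoc, ← mul_assoc k k b, r3 hb h.ck.1, one_mul]] at h5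

lemma mem_rot (hb : IsBin H V) (hd : MinD p V H d) (h : NC p V d k k1)
    (htop : bk p V k ⊔ bk p V k1 = ⊤) {g : H} : g ∈ rot hb hd h htop ↔ ¬ IsK p V d g := Iff.rfl

lemma rot_inv (hb : IsBin H V) (hd : MinD p V H d) (h : NC p V d k k1)
    (htop : bk p V k ⊔ bk p V k1 = ⊤) {g : H} (hg : g ∈ rot hb hd h htop) :
    k * g * k = g⁻¹ := by
  have h3 : ¬ IsK p V d g⁻¹ := fun hK => hg (by
    have := inv_isK hb hK
    rwa [inv_inv] at this)
  have h4 := inv_isK hb (mul_isK hb hd h htop h3 h.ck)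
  rw [mul_inv_rev, inv_inv, r3' hb h.ck.1] at h4
  have h5 := r3 hb h4.1
  rw [← mul_assoc] at h5
  exact eq_inv_of_mul_eq_one_left h5

lemma rot_comm (hb : IsBin H V) (hd : MinD p V H d) (h : NC p V d k k1)
    (htop : bk p V k ⊔ bk p V k1 = ⊤) {a b : H} (ha : a ∈ rot hb hd h htop)
    (hbb : b ∈ rot hb hd h htop) : a * b = b * a := by
  have h1 := rot_inv hb hd h htop ha
  have h2 := rot_inv hb hd h htop hbb
  have h3 := rot_inv hb hd h htop (mul_mem ha hbb)
  have h4 : k * (a * b) * k = (k * a * k) * (k * b * k) := by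
    have : (k * a * k) * (k * b * k) = k * a * (k * k) * b * k := by group
    rw [this, r3 hb h.ck.1]; group
  rw [h1, h2, h3, mul_inv_rev] at h4
  have h5 := congrArg (fun t => t⁻¹) h4
  simp only [mul_inv_rev, inv_inv] at h5
  exact h5

/-- the orbit of a fixed vector of `k` -/
lemma orbit_card (hb : IsBin H V) (hd : MinD p V H d) (h : NC p V d k k1)
    (htop : bk p V k ⊔ bk p V k1 = ⊤) {u : V} (hu : u ∈ fx p V k) (hu0 : u ≠ 0) :
    {z : V | ∃ h : H, h • u = z}.ncard = p ^ d + 1 := by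
  classical
  have hd0 := d_pos h.ck
  set S : Set V := (Set.univ : Set V) \ (bk p V k) with hS
  have hcount := line_count hb (d := d) S u (by
    rintro x ⟨-, hx⟩
    have hx0 : x ≠ 0 := by
      rintro rfl
      exact hx (Submodule.zero_mem _)
    obtain ⟨κ, hκ, hxκ⟩ := cover_top hb hd h htop hx0
    have hne : κ ≠ k := by
      rintro rfl
      exact hx hxκ
    refine ⟨hx0, κ, hκ, hxκ, fun y hy hy0 => ⟨trivial, fun hyk => ?_⟩, fun hκu => ?_⟩
    · exact hne (r2 hb hκ.1 h.ck.1 hy hyk hy0)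
    · exact hu0 (fx_disj hb h htop hκ h.ck hne (mem_fx.2 hκu) hu))
  set T := {b | b ∈ S ∧ ∃ h : H, h • u = u + b} with hT
  have hQ1 : 1 < p ^ d := Nat.one_lt_pow hd0.ne' hp.out.one_lt
  have hTcard : T.ncard = p ^ d := by
    have hScard : S.ncard = p ^ (2 * d) - p ^ d := by
      rw [hS, Set.ncard_sdiff (Set.subset_univ _) (Set.toFinite _), card_sub, Set.ncard_univ,
        Module.natCard_eq_pow_finrank (K := ZMod p) (V := V), Nat.card_zmod, top_dim hb h htop,
        h.ck.2]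
    rw [hScard] at hcount
    have h5 : p ^ (2 * d) - p ^ d = (p ^ d - 1) * p ^ d := by
      rw [Nat.sub_mul, one_mul, ← pow_add, show d + d = 2 * d by ring]
    rw [h5] at hcount
    exact (Nat.eq_of_mul_eq_mul_left (by omega) hcount).symm
  have hset : {z : V | ∃ h : H, h • u = z} = insert u ((fun b => u + b) '' T) := by
    ext z
    constructor
    · rintro ⟨g, hg⟩
      by_cases hzu : z = u
      · exact Or.inl hzu
      right
      have hb0 : z - u ≠ 0 := sub_ne_zero.2 hzu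
      refine ⟨z - u, ⟨⟨trivial, fun hmem => ?_⟩, g, by rw [hg]; abel⟩, by
        show u + (z - u) = z
        abel⟩
      have h5 := r1 hb h.ck.1 hmem hb0 (z := u) ⟨g, by rw [hg]; abel⟩
      rw [mem_fx.1 hu] at h5
      exact hb0 (left_eq_add.1 h5)
    · rintro (rfl | ⟨b, ⟨-, g, hg⟩, rfl⟩)
      · exact ⟨1, one_smul _ _⟩
      · exact ⟨g, hg⟩
  rw [hset, Set.ncard_insert_of_notMem, Set.ncard_image_of_injective _ (add_right_injective u),
    hTcard]
  rintro ⟨b, ⟨⟨-, hbS⟩, -⟩, hb0⟩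
  have : b = 0 := add_eq_left.1 hb0
  exact hbS (this ▸ Submodule.zero_mem _)

lemma rot_free (hb : IsBin H V) (hd : MinD p V H d) (h : NC p V d k k1)
    (htop : bk p V k ⊔ bk p V k1 = ⊤) {u : V} (hu0 : u ≠ 0) {a b : H}
    (ha : a ∈ rot hb hd h htop) (hbb : b ∈ rot hb hd h htop) (hab : a • u = b • u) : a = b := by
  by_contra hne
  have h1 : a⁻¹ * b ≠ 1 := fun h0 => hne (inv_mul_eq_one.1 h0)
  have h2 : (a⁻¹ * b) • u = u := by rw [mul_smul, ← hab, inv_smul_smul]
  exact (mem_rot hb hd h htop).1 (mul_mem (inv_mem ha) hbb) (isK_of_fix hb hd h htop h1 hu0 h2)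

lemma rot_card (hb : IsBin H V) (hd : MinD p V H d) (h : NC p V d k k1)
    (htop : bk p V k ⊔ bk p V k1 = ⊤) : Nat.card (rot hb hd h htop) = p ^ d + 1 := by
  obtain ⟨u, hu, hu0⟩ := exists_fx hb h htop h.ck
  rw [← orbit_card hb hd h htop hu hu0, ← Nat.card_coe_set_eq]
  apply Nat.card_eq_of_bijective (fun a : rot hb hd h htop => (⟨(a : H) • u, a, rfl⟩ :
    {z : V | ∃ h : H, h • u = z}))
  constructor
  · rintro ⟨a, ha⟩ ⟨b, hbb⟩ hab
    exact Subtype.ext (rot_free hb hd h htop hu0 ha hbb (congrArg Subtype.val hab))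
  · rintro ⟨z, g, hg⟩
    by_cases hgK : IsK p V d g
    · refine ⟨⟨g * k, mul_notK hb h htop hgK h.ck⟩, Subtype.ext ?_⟩
      show (g * k) • u = z
      rw [mul_smul, mem_fx.1 hu, hg]
    · exact ⟨⟨g, hgK⟩, Subtype.ext hg⟩

lemma rot_irr (hb : IsBin H V) (hirr : Irr p V H) (hd : MinD p V H d) (h : NC p V d k k1)
    (htop : bk p V k ⊔ bk p V k1 = ⊤) (W : Submodule (ZMod p) V)
    (hW : ∀ a ∈ rot hb hd h htop, ∀ w ∈ W, a • w ∈ W) : W = ⊥ ∨ W = ⊤ := by
  by_contra hcon
  push Not at hcon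
  obtain ⟨hW1, hW2⟩ := hcon
  set kl : V →ₗ[ZMod p] V :=
    AddMonoidHom.toZModLinearMap p (DistribMulAction.toAddMonoidHom V k) with hkl
  have hklinj : Function.Injective kl := fun a b hab => smul_left_cancel k hab
  set W' := W.map kl with hW'
  have hW'mem : ∀ v, v ∈ W' ↔ k • v ∈ W := by
    intro v
    rw [hW', Submodule.mem_map]
    constructor
    · rintro ⟨w, hw, rfl⟩
      have : k • (k • w) ∈ W := by rw [← mul_smul, r3 hb h.ck.1, one_smul]; exact hw
      exact this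
    · intro hv
      refine ⟨k • v, hv, ?_⟩
      show k • (k • v) = v
      rw [← mul_smul, r3 hb h.ck.1, one_smul]
  have hdim : finrank (ZMod p) W' = finrank (ZMod p) W :=
    (LinearEquiv.finrank_eq (Submodule.equivMapOfInjective kl hklinj W)).symm
  have hk : ∀ w ∈ W ⊓ W', k • w ∈ W ⊓ W' := by
    rintro w ⟨h1, h2⟩
    refine ⟨(hW'mem w).1 h2, (hW'mem _).2 ?_⟩
    rw [← mul_smul, r3 hb h.ck.1, one_smul]; exact h1
  have ha : ∀ a ∈ rot hb hd h htop, ∀ w ∈ W ⊓ W', a • w ∈ W ⊓ W' := by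
    rintro a haa w ⟨h1, h2⟩
    refine ⟨hW a haa w h1, (hW'mem _).2 ?_⟩
    have h3 := rot_inv hb hd h htop haa
    have h4 : k * a = a⁻¹ * k := by rw [← h3, mul_assoc, r3 hb h.ck.1, mul_one]
    rw [← mul_smul, h4, mul_smul]
    exact hW _ (inv_mem haa) _ ((hW'mem w).1 h2)
  have hinv : ∀ g : H, ∀ w ∈ W ⊓ W', g • w ∈ W ⊓ W' := by
    intro g w hw
    by_cases hgK : IsK p V d g
    · have h3 : g * k ∈ rot hb hd h htop := mul_notK hb h htop hgK h.ck
      have h4 := ha _ h3 _ (hk w hw)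
      rwa [← mul_smul, mul_assoc, r3 hb h.ck.1, mul_one] at h4
    · exact ha g hgK w hw
  rcases hirr _ hinv with h1 | h1
  · have e1 := Submodule.finrank_sup_add_finrank_inf_eq W W'
    have e2 := Submodule.finrank_le (W ⊔ W')
    rw [h1, finrank_bot, hdim] at e1
    rw [top_dim hb h htop] at e2
    have e3 : finrank (ZMod p) W ≤ d := by omega
    obtain ⟨w, hw, hw0⟩ := Submodule.exists_mem_ne_zero_of_ne_bot hW1
    have e4 : Nat.card (rot hb hd h htop) ≤ (W : Set V).ncard := by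
      rw [← Nat.card_coe_set_eq]
      apply Nat.card_le_card_of_injective
        (fun a : rot hb hd h htop => (⟨(a : H) • w, hW a a.2 w hw⟩ : (W : Set V)))
      rintro ⟨a, ha⟩ ⟨b, hbb⟩ hab
      exact Subtype.ext (rot_free hb hd h htop hw0 ha hbb (congrArg Subtype.val hab))
    rw [rot_card, card_sub] at e4
    have e5 : p ^ finrank (ZMod p) W ≤ p ^ d := Nat.pow_le_pow_right hp.out.pos e3
    omega
  · apply hW2
    rw [eq_top_iff, ← h1]
    exact inf_le_left

end plane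

end Cfsg.Agent.H4.Bin
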