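import Cfsg.Agent.H4_Bin8

/-! Binary affine groups IX: the field (helper4, for S5753). -/

set_option autoImplicit false
set_option linter.unusedSectionVars false

namespace Cfsg.Agent.H4.Bin

open Module

/-- a finite domain is isomorphic to a field in `Type` -/
lemma exists_field {C : Type*} [Ring C] [IsDomain C] [Finite C] :
    ∃ (E : Type) (_ : Field E) (_ : Fintype E), Nonempty (C ≃+* E) := by
  classical
  haveI : Finite (Shrink.{0} C) := Finite.of_equiv C (equivShrink.{0} C)
  letI : Field (Shrink.{0} C) := (Finite.isDomain_to_isField (Shrink.{0} C)).toField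
  exact ⟨Shrink.{0} C, inferInstance, Fintype.ofFinite _, ⟨(Shrink.ringEquiv.{0} C).symm⟩⟩

/-- the fixed field of an involution -/
lemma quad_field {E : Type} [Field E] [Fintype E] (σ : E ≃+* E) (hσ1 : ∀ x, σ (σ x) = x)
    (hσ : ∃ x, σ x ≠ x) {Q : ℕ} (hQ : Nat.card E = Q ^ 2) (hQ1 : 1 < Q) :
    ∃ (F : Type) (_ : Field F) (_ : Fintype F) (_ : Algebra F E),
      Module.finrank F E = 2 ∧ (∀ x : E, Algebra.norm F x = 1 ↔ x ^ (Q + 1) = 1) ∧
      (∃ φ : E ≃ₐ[F] E, ∀ x, φ x = σ x) ∧
      ∀ φ : E ≃ₐ[F] E, (∀ x, φ x = x) ∨ (∀ x, φ x = σ x) := by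
  classical
  let τ : RingAut E := σ
  have hτ2 : τ * τ = 1 := by
    ext x
    exact hσ1 x
  have hτ1 : τ ≠ 1 := by
    intro h
    obtain ⟨x, hx⟩ := hσ
    apply hx
    have : τ x = (1 : RingAut E) x := by rw [h]
    exact this
  have hord : orderOf τ = 2 := orderOf_eq_prime (by rw [pow_two]; exact hτ2) hτ1
  let G : Subgroup (RingAut E) := Subgroup.zpowers τ
  haveI : Finite (RingAut E) := Finite.of_injective (fun f : RingAut E => (f : E → E))
    (fun f g h => RingEquiv.ext (fun x => congrFun h x))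
  haveI : Fintype G := Fintype.ofFinite G
  have hGcard : Fintype.card G = 2 := by
    rw [← Nat.card_eq_fintype_card, Nat.card_zpowers, hord]
  haveI : FaithfulSMul G E := ⟨fun {a b} h => Subtype.ext (RingEquiv.ext fun x => h x)⟩
  let F := FixedPoints.subfield G E
  have hfr : Module.finrank F E = 2 := by
    rw [FixedPoints.finrank_eq_card G E, hGcard]
  haveI : Fintype F := Fintype.ofFinite F
  have hcardF : Nat.card F = Q := by
    have h1 := Module.natCard_eq_pow_finrank (K := F) (V := E)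
    rw [hfr, hQ] at h1
    exact (Nat.pow_left_injective (n := 2) (by norm_num) h1).symm
  have hG : ∀ g : G, (∀ x : E, g • x = x) ∨ (∀ x : E, g • x = σ x) := by
    rintro ⟨g, hg⟩
    obtain ⟨n, rfl⟩ := (mem_powers_iff_mem_zpowers (x := τ)).2 hg
    have h1 : ∀ m : ℕ, τ ^ m = 1 ∨ τ ^ m = τ := by
      intro m
      induction m with
      | zero => left; rw [pow_zero]
      | succ m ih =>
        rcases ih with h | h
        · right; rw [pow_succ, h, one_mul]
        · left; rw [pow_succ, h, hτ2]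
    rcases h1 n with h | h
    · left
      intro x
      show (τ ^ n) x = x
      rw [h]; rfl
    · right
      intro x
      show (τ ^ n) x = σ x
      rw [h]
  refine ⟨F, inferInstance, inferInstance, inferInstance, hfr, ?_, ?_, ?_⟩
  · intro x
    rw [← (algebraMap F E).injective.eq_iff, map_one, FiniteField.algebraMap_norm_eq_pow, hQ,
      hcardF]
    have : (Q ^ 2 - 1) / (Q - 1) = Q + 1 := by
      have h2 : Q ^ 2 - 1 = (Q + 1) * (Q - 1) := by
        have := Nat.sq_sub_sq Q 1
        rwa [one_pow] at this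
      rw [h2, Nat.mul_div_cancel _ (by omega)]
    rw [this]
  · exact ⟨MulSemiringAction.toAlgAut G F E ⟨τ, Subgroup.mem_zpowers τ⟩, fun x => rfl⟩
  · intro φ
    obtain ⟨g, rfl⟩ := (FixedPoints.toAlgAut_bijective G E).2 φ
    exact hG g

section
variable {p : ℕ} [hp : Fact p.Prime] {V H : Type*} [AddCommGroup V] [Module (ZMod p) V]
  [Group H] [DistribMulAction H V] [FaithfulSMul H V] [Finite V] [Finite H]

variable (p V) in
/-- the representation -/
def L (h : H) : Module.End (ZMod p) V :=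
  AddMonoidHom.toZModLinearMap p (DistribMulAction.toAddMonoidHom V h)

lemma L_apply (h : H) (v : V) : L p V h v = h • v := rfl

lemma L_mul (g h : H) : L p V (g * h) = L p V g * L p V h := by
  ext v
  rw [Module.End.mul_apply, L_apply, L_apply, L_apply, mul_smul]

lemma L_one : L p V (1 : H) = 1 := by
  ext v
  rw [L_apply, one_smul, Module.End.one_apply]

lemma L_pow (g : H) (n : ℕ) : L p V (g ^ n) = L p V g ^ n := by
  induction n with
  | zero => rw [pow_zero, pow_zero, L_one]
  | succ n ih => rw [pow_succ, pow_succ, L_mul, ih]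

theorem field_stage (A : Subgroup H) (κ : H) (v0 : V) (Q : ℕ) (hQ1 : 1 < Q)
    (hAc : ∀ a ∈ A, ∀ b ∈ A, a * b = b * a) (hκA : ∀ a ∈ A, κ * a * κ = a⁻¹)
    (hκκ : κ * κ = 1) (hκ1 : κ ≠ 1) (hκv : κ • v0 = v0) (hv0 : v0 ≠ 0)
    (hHA : ∀ h : H, h ∈ A ∨ h * κ ∈ A)
    (hirr : ∀ W : Submodule (ZMod p) V, (∀ a ∈ A, ∀ w ∈ W, a • w ∈ W) → W = ⊥ ∨ W = ⊤)
    (hAcard : Nat.card A = Q + 1) (hVcard : Nat.card V = Q ^ 2) :
    ∃ (F E : Type) (_ : Field F) (_ : Fintype F) (_ : Field E) (_ : Fintype E) (_ : Algebra F E)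
      (e : V ≃+ E), Module.finrank F E = 2 ∧
      ∀ f : V → V, (∃ h : H, ∀ v, h • v = f v) ↔
        ∃ (a : E) (φ : E ≃ₐ[F] E), Algebra.norm F a = 1 ∧ ∀ v, e (f v) = a * φ (e v) := by
  classical
  -- the centralizer ring
  let C : Subring (Module.End (ZMod p) V) :=
    { carrier := {f | ∀ a ∈ A, f * L p V a = L p V a * f}
      mul_mem' := by
        intro f g hf hg a ha
        rw [mul_assoc, hg a ha, ← mul_assoc, hf a ha, mul_assoc]
      one_mem' := fun a _ => by rw [one_mul, mul_one]
      add_mem' := by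
        intro f g hf hg a ha
        rw [add_mul, mul_add, hf a ha, hg a ha]
      zero_mem' := fun a _ => by rw [zero_mul, mul_zero]
      neg_mem' := by
        intro f hf a ha
        rw [neg_mul, mul_neg, hf a ha] }
  have hCmem : ∀ f, f ∈ C ↔ ∀ a ∈ A, f * L p V a = L p V a * f := fun f => Iff.rfl
  have hinj : ∀ f ∈ C, f ≠ 0 → ∀ v, f v = 0 → v = 0 := by
    intro f hf hf0 v hv
    rcases hirr (LinearMap.ker f) (by
      intro a ha w hw
      rw [LinearMap.mem_ker] at hw ⊢
      have := congrArg (fun g : Module.End (ZMod p) V => g w) (hf a ha)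
      simp only [Module.End.mul_apply, L_apply] at this
      rw [this, hw, smul_zero]) with h | h
    · have : v ∈ LinearMap.ker f := hv
      rw [h] at this
      exact this
    · exact absurd (LinearMap.ker_eq_top.1 h) hf0
  haveI hnt : Nontrivial V := ⟨⟨v0, 0, hv0⟩⟩
  haveI : Nontrivial C := by
    refine ⟨⟨1, 0, fun h => ?_⟩⟩
    have h1 : (1 : Module.End (ZMod p) V) = 0 := congrArg Subtype.val h
    have h2 := congrArg (fun g : Module.End (ZMod p) V => g v0) h1
    exact hv0 h2
  haveI : NoZeroDivisors C := by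
    refine ⟨?_⟩
    rintro ⟨f, hf⟩ ⟨g, hg⟩ hfg
    by_contra hcon
    push Not at hcon
    obtain ⟨h1, h2⟩ := hcon
    apply h2
    apply Subtype.ext
    show g = 0
    ext v
    have hf0 : f ≠ 0 := fun h0 => h1 (Subtype.ext h0)
    have h3 : f * g = 0 := congrArg Subtype.val hfg
    exact hinj f hf hf0 (g v) (congrArg (fun t : Module.End (ZMod p) V => t v) h3)
  haveI : IsDomain C := NoZeroDivisors.to_isDomain C
  haveI : Finite (Module.End (ZMod p) V) := Finite.of_injective
    (fun f : Module.End (ZMod p) V => (f : V → V)) DFunLike.coe_injective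
  obtain ⟨E, iE, fE, ⟨ι⟩⟩ := exists_field (C := C)
  have hLC : ∀ a ∈ A, L p V a ∈ C := by
    intro a ha b hb
    rw [← L_mul, ← L_mul, hAc a ha b hb]
  -- evaluation
  let ev : C →+ V :=
    { toFun := fun f => (f : Module.End (ZMod p) V) v0
      map_zero' := rfl
      map_add' := fun f g => rfl }
  have hevinj : Function.Injective ev := by
    rw [injective_iff_map_eq_zero]
    rintro ⟨f, hf⟩ h
    by_contra hne
    exact hv0 (hinj f hf (fun h0 => hne (Subtype.ext h0)) v0 h)
  have hevsurj : Function.Surjective ev := by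
    let W := AddSubgroup.toZModSubmodule p ev.range
    have hWmem : ∀ v, v ∈ W ↔ ∃ f, ev f = v := fun v => Iff.rfl
    rcases hirr W (by
      intro a ha w hw
      rw [hWmem] at hw ⊢
      obtain ⟨f, rfl⟩ := hw
      exact ⟨⟨L p V a, hLC a ha⟩ * f, rfl⟩) with h | h
    · exfalso
      have : v0 ∈ W := ⟨1, rfl⟩
      rw [h] at this
      exact hv0 this
    · intro v
      have : v ∈ W := h ▸ Submodule.mem_top
      exact this
  let eC : C ≃+ V := AddEquiv.ofBijective ev ⟨hevinj, hevsurj⟩
  let e : V ≃+ E := eC.symm.trans ι.toAddEquiv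
  have he : ∀ f : C, e ((f : Module.End (ZMod p) V) v0) = ι f := by
    intro f
    show ι (eC.symm (eC f)) = ι f
    rw [AddEquiv.symm_apply_apply]
  have hev : ∀ v : V, ∃ f : C, (f : Module.End (ZMod p) V) v0 = v := hevsurj
  let α : A → E := fun a => ι ⟨L p V (a : H), hLC a a.2⟩
  have hα : ∀ (a : A) (v : V), e ((a : H) • v) = α a * e v := by
    intro a v
    obtain ⟨f, rfl⟩ := hev v
    rw [he]
    have : (a : H) • ((f : Module.End (ZMod p) V) v0) =
        (((⟨L p V (a : H), hLC a a.2⟩ : C) * f : C) : Module.End (ZMod p) V) v0 := rfl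
    rw [this, he, map_mul]
  -- the automorphism
  have hκC : ∀ f ∈ C, L p V κ * f * L p V κ ∈ C := by
    intro f hf a ha
    have h1 : κ * a = a⁻¹ * κ := by
      rw [← hκA a ha, mul_assoc, hκκ, mul_one]
    have h2 : a * κ = κ * a⁻¹ := by
      have := hκA a⁻¹ (inv_mem ha)
      rw [inv_inv] at this
      calc a * κ = (κ * a⁻¹ * κ) * κ := by rw [this]
        _ = κ * a⁻¹ := by rw [mul_assoc, hκκ, mul_one]
    calc L p V κ * f * L p V κ * L p V a = L p V κ * f * L p V (κ * a) := by
          rw [L_mul, mul_assoc]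
      _ = L p V κ * (f * L p V a⁻¹) * L p V κ := by rw [h1, L_mul]; simp only [mul_assoc]
      _ = L p V κ * (L p V a⁻¹ * f) * L p V κ := by rw [hf a⁻¹ (inv_mem ha)]
      _ = L p V (κ * a⁻¹) * f * L p V κ := by rw [L_mul]; simp only [mul_assoc]
      _ = L p V a * (L p V κ * f * L p V κ) := by rw [← h2, L_mul]; simp only [mul_assoc]
  have hLκκ : L p V κ * L p V κ = 1 := by rw [← L_mul, hκκ, L_one]
  have hkk : ∀ f : Module.End (ZMod p) V, L p V κ * (L p V κ * f * L p V κ) * L p V κ = f := by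
    intro f
    calc L p V κ * (L p V κ * f * L p V κ) * L p V κ
        = (L p V κ * L p V κ) * f * (L p V κ * L p V κ) := by simp only [mul_assoc]
      _ = f := by rw [hLκκ, one_mul, mul_one]
  let σC : C ≃+* C :=
    { toFun := fun f => ⟨L p V κ * f * L p V κ, hκC f f.2⟩
      invFun := fun f => ⟨L p V κ * f * L p V κ, hκC f f.2⟩
      left_inv := fun f => Subtype.ext (hkk f)
      right_inv := fun f => Subtype.ext (hkk f)
      map_mul' := by
        intro f g
        apply Subtype.ext
        show L p V κ * (f * g : Module.End (ZMod p) V) * L p V κ =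
          (L p V κ * f * L p V κ) * (L p V κ * g * L p V κ)
        calc L p V κ * (f * g : Module.End (ZMod p) V) * L p V κ
            = L p V κ * f * (1 : Module.End (ZMod p) V) * g * L p V κ := by
              simp only [mul_assoc, one_mul]
          _ = _ := by rw [← hLκκ]; simp only [mul_assoc]
      map_add' := by
        intro f g
        apply Subtype.ext
        show L p V κ * (f + g : Module.End (ZMod p) V) * L p V κ =
          (L p V κ * f * L p V κ) + (L p V κ * g * L p V κ)
        rw [mul_add, add_mul] }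
  let σ : E ≃+* E := (ι.symm.trans σC).trans ι
  have hσ : ∀ v : V, e (κ • v) = σ (e v) := by
    intro v
    obtain ⟨f, rfl⟩ := hev v
    have h1 : κ • ((f : Module.End (ZMod p) V) v0) =
        ((σC f : C) : Module.End (ZMod p) V) v0 := by
      show κ • ((f : Module.End (ZMod p) V) v0) = κ • ((f : Module.End (ZMod p) V) (κ • v0))
      rw [hκv]
    rw [h1, he, he]
    show ι (σC f) = ι (σC (ι.symm (ι f)))
    rw [RingEquiv.symm_apply_apply]
  have hσσ : ∀ x, σ (σ x) = x := by
    intro x
    obtain ⟨v, rfl⟩ := e.surjective x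
    rw [← hσ, ← hσ, ← mul_smul, hκκ, one_smul]
  have hσne : ∃ x, σ x ≠ x := by
    by_contra hcon
    push Not at hcon
    apply hκ1
    apply one_of_forall (V := V)
    intro v
    apply e.injective
    rw [hσ, hcon]
  have hEcard : Nat.card E = Q ^ 2 := by
    rw [← hVcard]; exact Nat.card_congr e.symm.toEquiv
  obtain ⟨F, iF, fF, aF, hfr, hnorm, ⟨φσ, hφσ⟩, hφ⟩ := quad_field σ hσσ hσne hEcard hQ1
  refine ⟨F, E, iF, fF, iE, fE, aF, e, hfr, ?_⟩
  -- the norm one elements
  have hαinj : Function.Injective α := by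
    rintro ⟨a, ha⟩ ⟨b, hb⟩ hab
    have h1 := congrArg Subtype.val (ι.injective hab)
    apply Subtype.ext
    apply eq_of_smul_eq_smul (α := V)
    intro v
    exact congrArg (fun t : Module.End (ZMod p) V => t v) h1
  have hαpow : ∀ a : A, α a ^ (Q + 1) = 1 := by
    intro a
    have h1 : a ^ (Q + 1) = 1 := by rw [← hAcard]; exact pow_card_eq_one'
    have h2 : (⟨L p V (a : H), hLC a a.2⟩ : C) ^ (Q + 1) = 1 := by
      apply Subtype.ext
      show (L p V (a : H)) ^ (Q + 1) = 1
      have h3 : (a : H) ^ (Q + 1) = 1 := congrArg Subtype.val h1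
      rw [← L_pow, h3, L_one]
    show (ι _) ^ (Q + 1) = 1
    rw [← map_pow, h2, map_one]
  have hαsurj : ∀ x : E, x ^ (Q + 1) = 1 → ∃ a : A, α a = x := by
    intro x hx
    haveI : Fintype A := Fintype.ofFinite A
    have h1 : (Finset.univ.image α) ⊆ Polynomial.nthRootsFinset (Q + 1) (1 : E) := by
      intro y hy
      rw [Finset.mem_image] at hy
      obtain ⟨a, -, rfl⟩ := hy
      rw [Polynomial.mem_nthRootsFinset (by omega)]
      exact hαpow a
    have h2 : (Polynomial.nthRootsFinset (Q + 1) (1 : E)).card ≤ (Finset.univ.image α).card := by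
      rw [Finset.card_image_of_injective _ hαinj, Finset.card_univ, ← Nat.card_eq_fintype_card,
        hAcard, Polynomial.nthRootsFinset]
      exact (Multiset.toFinset_card_le _).trans (Polynomial.card_nthRoots _ _)
    have h3 := Finset.eq_of_subset_of_card_le h1 h2
    have h4 : x ∈ Finset.univ.image α := by
      rw [h3, Polynomial.mem_nthRootsFinset (by omega)]
      exact hx
    rw [Finset.mem_image] at h4
    obtain ⟨a, -, ha⟩ := h4
    exact ⟨a, ha⟩
  intro f
  constructor
  · rintro ⟨h, hf⟩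
    rcases hHA h with hA | hA
    · refine ⟨α ⟨h, hA⟩, AlgEquiv.refl, (hnorm _).2 (hαpow _), fun v => ?_⟩
      rw [← hf]
      exact hα ⟨h, hA⟩ v
    · refine ⟨α ⟨h * κ, hA⟩, φσ, (hnorm _).2 (hαpow _), fun v => ?_⟩
      rw [← hf, hφσ, ← hσ, ← hα ⟨h * κ, hA⟩]
      show _ = e ((h * κ) • (κ • v))
      rw [← mul_smul, mul_assoc, hκκ, mul_one]
  · rintro ⟨x, φ, hx, hf⟩
    obtain ⟨a, rfl⟩ := hαsurj x ((hnorm x).1 hx)
    rcases hφ φ with h1 | h1
    · refine ⟨a, fun v => e.injective ?_⟩
      rw [hf, h1, hα]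
    · refine ⟨a * κ, fun v => e.injective ?_⟩
      rw [hf, h1, mul_smul, hα, hσ]

variable (p V H) in
theorem main2 (hb : IsBin H V) (hirr : Irr p V H) [Nontrivial V] :
    (finrank (ZMod p) V = 1 ∧ Nat.card H ≤ 2) ∨
    ∃ (F E : Type) (_ : Field F) (_ : Fintype F) (_ : Field E) (_ : Fintype E) (_ : Algebra F E)
      (e : V ≃+ E), Module.finrank F E = 2 ∧
      ∀ f : V → V, (∃ h : H, ∀ v, h • v = f v) ↔
        ∃ (a : E) (φ : E ≃ₐ[F] E), Algebra.norm F a = 1 ∧ ∀ v, e (f v) = a * φ (e v) := by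
  rcases main1 hb hirr with h | ⟨d, k, k1, hd, h, htop⟩
  · exact Or.inl h
  right
  obtain ⟨v0, hv0, hv00⟩ := exists_fx hb h htop h.ck
  have hd0 := d_pos h.ck
  refine field_stage (rot hb hd h htop) k v0 (p ^ d) (Nat.one_lt_pow hd0.ne' hp.out.one_lt)
    (fun a ha b hbb => rot_comm hb hd h htop ha hbb) (fun a ha => rot_inv hb hd h htop ha)
    (r3 hb h.ck.1) h.ck.1.1 (mem_fx.1 hv0) hv00 (fun g => ?_)
    (rot_irr hb hirr hd h htop) (rot_card hb hd h htop) ?_
  · by_cases hg : IsK p V d g
    · exact Or.inr (mul_notK hb h htop hg h.ck)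
    · exact Or.inl hg
  · rw [Module.natCard_eq_pow_finrank (K := ZMod p) (V := V), Nat.card_zmod, top_dim hb h htop,
      ← pow_mul]
    congr 1
    ring

end

end Cfsg.Agent.H4.Bin
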