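import Mathlib
import Cfsg.Agent.H4_ZCor
import Cfsg.Agent.H12_Core

set_option autoImplicit false

/-! Finite groups with generalized quaternion Sylow 2-subgroups. -/

namespace Cfsg.Agent.H4.QuatG

open Cfsg Cfsg.Agent.H4.Inv Cfsg.Agent.H4.Iso QuaternionGroup Cfsg.Agent.H4.QuatData

universe u

theorem index_odd {G : Type u} [Group G] [Finite G] (S : Sylow 2 G) {n : ℕ} (hn : 1 ≤ n)
    (e : (S : Subgroup G) ≃* QuaternionGroup (2 ^ n)) {c : G} (hord : orderOf c = 2 ^ (n + 1)) :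
      ¬ 2 ∣ ((Subgroup.zpowers c).subgroupOf
        (Subgroup.centralizer ({c ^ (2 ^ (n - 1))} : Set G))).index := by
  have hf : Fact (Nat.Prime 2) := ⟨Nat.prime_two⟩
  have hN0 : NeZero (2 ^ n) := ⟨by positivity⟩
  intro hdvd
  set y : G := c ^ (2 ^ (n - 1)) with hy
  have hyy : y * y ≠ 1 := by
    intro h
    have h1 : c ^ (2 ^ n) = 1 := by
      rw [hy, ← pow_add, ← two_mul, ← pow_succ'] at h
      have : n - 1 + 1 = n := by omega
      rwa [this] at h
    have h2 := orderOf_dvd_of_pow_eq_one h1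
    rw [hord, pow_succ] at h2
    have h3 := Nat.le_of_dvd (by positivity) h2
    have : 0 < 2 ^ n := by positivity
    omega
  set C := Subgroup.centralizer ({y} : Set G) with hC
  have hcC : c ∈ C := by
    rw [hC, Subgroup.mem_centralizer_singleton_iff, hy]
    exact ((Commute.refl c).pow_right _).eq
  have hTC : Subgroup.zpowers c ≤ C := by
    rw [Subgroup.zpowers_le]; exact hcC
  have hTcard : Nat.card ((Subgroup.zpowers c).subgroupOf C) = 2 ^ (n + 1) := by
    rw [Nat.card_congr (Subgroup.subgroupOfEquivOfLe hTC).toEquiv, Nat.card_zpowers, hord]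
  have hdvd2 : 2 ^ (n + 1 + 1) ∣ Nat.card C := by
    rw [← Subgroup.card_mul_index ((Subgroup.zpowers c).subgroupOf C), hTcard, pow_succ]
    exact Nat.mul_dvd_mul_left _ hdvd
  obtain ⟨K, hK1, hK2⟩ := Sylow.exists_subgroup_card_pow_succ hdvd2 hTcard
  have hScard : Nat.card (S : Subgroup G) = 2 ^ (n + 2) := by
    rw [Nat.card_congr e.toEquiv, Nat.card_eq_fintype_card, QuaternionGroup.card, pow_add]
    ring
  have hQcard : Nat.card (K.map C.subtype) = 2 ^ (n + 2) := by
    rw [Nat.card_congr (K.equivMapOfInjective C.subtype C.subtype_injective).symm.toEquiv, hK1]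
  have hQp : IsPGroup 2 (K.map C.subtype) := IsPGroup.of_card hQcard
  obtain ⟨Q, hQ⟩ := hQp.exists_le_sylow
  have hQeq : K.map C.subtype = (Q : Subgroup G) := by
    apply Cfsg.Agent.H11.Cores.eq_of_le_of_card_le hQ
    rw [hQcard, ← hScard]
    exact ((Sylow.card_eq_multiplicity Q).trans (Sylow.card_eq_multiplicity S).symm).le
  have hyQ : y ∈ (Q : Subgroup G) := by
    rw [← hQeq]
    refine ⟨⟨y, ?_⟩, hK2 ?_, rfl⟩
    · rw [hC, Subgroup.mem_centralizer_singleton_iff]
    · rw [Subgroup.mem_subgroupOf]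
      exact Subgroup.pow_mem _ (Subgroup.mem_zpowers _) _
  refine not_central S Q (N := 2 ^ n) ?_ e y hyy hyQ ?_
  · calc 2 = 2 ^ 1 := by norm_num
      _ ≤ 2 ^ n := Nat.pow_le_pow_right (by norm_num) hn
  · intro s hs
    have hs' : s ∈ K.map C.subtype := by rw [hQeq]; exact hs
    obtain ⟨s', -, rfl⟩ := hs'
    have h8 : (s' : G) * y = y * s' := Subgroup.mem_centralizer_singleton_iff.mp s'.2
    exact h8.symm

theorem zmod_two {N : ℕ} (hN : 0 < N) (i : ZMod (2 * N)) (h : i + i = 0) : i = 0 ∨ i = (N : ZMod (2 * N)) := by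
  haveI : NeZero (2 * N) := ⟨by omega⟩
  obtain ⟨k, hk, rfl⟩ : ∃ k : ℕ, k < 2 * N ∧ (k : ZMod (2 * N)) = i :=
    ⟨i.val, i.val_lt, by simp⟩
  have h1 : ((k + k : ℕ) : ZMod (2 * N)) = 0 := by push_cast; exact h
  rw [ZMod.natCast_eq_zero_iff] at h1
  obtain ⟨l, hl⟩ := h1
  have hl2 : l < 2 := by nlinarith
  interval_cases l
  · left
    have : k = 0 := by omega
    rw [this]; simp
  · right
    have : k = N := by omega
    rw [this]

/-- elements of a quaternion Sylow subgroup -/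
theorem setup {G : Type u} [Group G] [Finite G] (S : Sylow 2 G) {n : ℕ} (hn : 1 ≤ n)
    (e : (S : Subgroup G) ≃* QuaternionGroup (2 ^ n)) :
    ∃ c b z : G, c ∈ S ∧ b ∈ S ∧ z ∈ S ∧ orderOf z = 2 ∧ (∀ t ∈ S, orderOf t = 2 → t = z) ∧
      orderOf c = 2 ^ (n + 1) ∧ b * c * b⁻¹ = c⁻¹ ∧ c ^ (2 ^ n) = z ∧ b * b = z ∧
      (∀ s ∈ S, s ∈ Subgroup.zpowers c ∨ ∃ t ∈ Subgroup.zpowers c, s = b * t) ∧
      b ∉ Subgroup.zpowers c := by
  have hN0 : NeZero (2 ^ n) := ⟨by positivity⟩
  set cS : (S : Subgroup G) := e.symm (a 1) with hcS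
  set bS : (S : Subgroup G) := e.symm (xa 0) with hbS
  have hordS : orderOf cS = 2 * 2 ^ n := by
    rw [hcS, MulEquiv.orderOf_eq, orderOf_a_one]
  have hord : orderOf (cS : G) = 2 ^ (n + 1) := by
    rw [Subgroup.orderOf_coe, hordS, pow_succ, mul_comm]
  have hbcS : bS * cS * bS⁻¹ = cS⁻¹ := by
    rw [hcS, hbS, ← map_mul, ← map_inv, ← map_mul, ← map_inv]
    congr 1
    rw [mul_inv_eq_iff_eq_mul]
    change xa 0 * a 1 = a (-1) * xa 0
    rw [xa_mul_a, a_mul_xa]
    congr 1
    ring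
  have hbc : (bS : G) * (cS : G) * (bS : G)⁻¹ = (cS : G)⁻¹ := by
    have := congrArg (fun x : (S : Subgroup G) => (x : G)) hbcS
    simpa using this
  have hcN2 : orderOf ((cS : G) ^ (2 ^ n)) = 2 := by
    rw [orderOf_pow_of_dvd (by positivity) (by rw [hord, pow_succ]; exact ⟨2, rfl⟩), hord, pow_succ,
      Nat.mul_div_cancel_left _ (by positivity)]
  have hbbS : bS * bS = cS ^ (2 ^ n) := by
    rw [hcS, hbS, ← map_mul, ← map_pow]
    congr 1
    rw [xa_mul_xa, a_one_pow]
    congr 1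
    ring
  have ha : ∀ i : ZMod (2 * 2 ^ n), ∃ k : ℕ, e.symm (a i) = cS ^ k := by
    intro i
    haveI : NeZero (2 * 2 ^ n) := ⟨by positivity⟩
    refine ⟨i.val, ?_⟩
    rw [hcS, ← map_pow, a_one_pow]
    simp
  refine ⟨cS, bS, (cS : G) ^ (2 ^ n), cS.2, bS.2, Subgroup.pow_mem _ cS.2 _, hcN2, ?_, hord, hbc, rfl,
    ?_, ?_, ?_⟩
  · intro t ht ht2
    obtain ⟨g, hg⟩ := e.symm.surjective ⟨t, ht⟩
    have ho : orderOf g = 2 := by
      rw [← MulEquiv.orderOf_eq e.symm, hg, ← Subgroup.orderOf_coe]; exact ht2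
    rcases g with i | i
    · have h1 : a i * a i = (1 : QuaternionGroup (2 ^ n)) := mul_self ho
      rw [a_mul_a, one_def] at h1
      have h2 : i + i = 0 := QuaternionGroup.a.inj h1
      rcases zmod_two (by positivity) i h2 with h3 | h3
      · rw [h3, a_zero, orderOf_one] at ho; norm_num at ho
      · have h4 : e.symm (a i) = cS ^ (2 ^ n) := by
          rw [hcS, ← map_pow, a_one_pow, h3]
        have h5 : (⟨t, ht⟩ : (S : Subgroup G)) = cS ^ (2 ^ n) := by rw [← hg, h4]
        have := congrArg (fun x : (S : Subgroup G) => (x : G)) h5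
        simpa using this
    · rw [orderOf_xa] at ho; norm_num at ho
  · have := congrArg (fun x : (S : Subgroup G) => (x : G)) hbbS
    simpa using this
  · intro s hs
    obtain ⟨g, hg⟩ := e.symm.surjective ⟨s, hs⟩
    rcases g with i | i
    · left
      obtain ⟨k, hk⟩ := ha i
      rw [hk] at hg
      have := congrArg (fun x : (S : Subgroup G) => (x : G)) hg
      simp only [Subgroup.coe_pow] at this
      rw [← this]
      exact Subgroup.pow_mem _ (Subgroup.mem_zpowers _) _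
    · right
      obtain ⟨k, hk⟩ := ha i
      have h1 : e.symm (xa i) = bS * cS ^ k := by
        rw [← hk, hbS, ← map_mul]
        congr 1
        rw [xa_mul_a, zero_add]
      rw [h1] at hg
      have := congrArg (fun x : (S : Subgroup G) => (x : G)) hg
      simp only [Subgroup.coe_mul, Subgroup.coe_pow] at this
      exact ⟨(cS : G) ^ k, Subgroup.pow_mem _ (Subgroup.mem_zpowers _) _, this.symm⟩
  · intro h
    obtain ⟨k, hk⟩ := Subgroup.mem_zpowers_iff.mp h
    have h1 : (bS : G) * (cS : G) * (bS : G)⁻¹ = (cS : G) := by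
      rw [← hk]; group
    rw [hbc] at h1
    have h2 : (cS : G) ^ 2 = 1 := by
      rw [pow_two]; nth_rewrite 1 [← h1]; exact inv_mul_cancel _
    have h3 := orderOf_dvd_of_pow_eq_one h2
    rw [hord, pow_succ] at h3
    have h4 := Nat.le_of_dvd (by norm_num) h3
    have : 2 ^ 1 ≤ 2 ^ n := Nat.pow_le_pow_right (by norm_num) hn
    omega

/-- a 2-subgroup has at most one involution -/
theorem eq_of_commute {G : Type u} [Group G] [Finite G] (S : Sylow 2 G) {z : G}
    (hu : ∀ t ∈ S, orderOf t = 2 → t = z) {s t : G} (hs : orderOf s = 2) (ht : orderOf t = 2)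
    (hc : Commute s t) : s = t := by
  have hf : Fact (Nat.Prime 2) := ⟨Nat.prime_two⟩
  have hp : IsPGroup 2 (Subgroup.zpowers s ⊔ Subgroup.zpowers t : Subgroup G) := by
    apply Cfsg.Agent.H4.Util.isPGroup_sup_of_commute
    · exact IsPGroup.of_card (n := 1) (by rw [Nat.card_zpowers, hs, pow_one])
    · exact IsPGroup.of_card (n := 1) (by rw [Nat.card_zpowers, ht, pow_one])
    · intro a ha b hb
      obtain ⟨i, rfl⟩ := Subgroup.mem_zpowers_iff.mp ha
      obtain ⟨j, rfl⟩ := Subgroup.mem_zpowers_iff.mp hb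
      exact (hc.zpow_zpow i j).eq
  obtain ⟨a, ha⟩ := Cfsg.Agent.H4.Util.exists_conj_le S _ hp
  have h1 := hu _ (ha s (Subgroup.mem_sup_left (Subgroup.mem_zpowers s))) (by rw [orderOf_conj]; exact hs)
  have h2 := hu _ (ha t (Subgroup.mem_sup_right (Subgroup.mem_zpowers t))) (by rw [orderOf_conj]; exact ht)
  have h3 := h1.trans h2.symm
  exact mul_left_cancel (mul_right_cancel h3)

/-- all involutions are conjugate to the one in `S` -/
theorem conj_of_invol {G : Type u} [Group G] [Finite G] (S : Sylow 2 G) {z : G}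
    (hu : ∀ t ∈ S, orderOf t = 2 → t = z) {t : G} (ht : orderOf t = 2) : ∃ g : G, t = g * z * g⁻¹ := by
  have hf : Fact (Nat.Prime 2) := ⟨Nat.prime_two⟩
  have hp : IsPGroup 2 (Subgroup.zpowers t) := IsPGroup.of_card (n := 1) (by rw [Nat.card_zpowers, ht, pow_one])
  obtain ⟨a, ha⟩ := Cfsg.Agent.H4.Util.exists_conj_le S _ hp
  have h2 := hu _ (ha t (Subgroup.mem_zpowers t)) (by rw [orderOf_conj]; exact ht)
  exact ⟨a⁻¹, by rw [← h2]; group⟩

end Cfsg.Agent.H4.QuatG
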