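import Mathlib
import Cfsg.Agent.H9_ZassI
import Cfsg.Agent.H21_SL2e
import Cfsg.Agent.H5_GL

/-!
# Sharply triply transitive groups of odd degree
-/

set_option autoImplicit false

namespace Cfsg.Agent.H4.S3

open Matrix Cfsg.Agent.H9.ZassI

theorem even_card_charTwo {F : Type*} [Field F] [Fintype F] (h : Even (Fintype.card F)) : CharP F 2 := by
  obtain ⟨p, hp⟩ := CharP.exists F
  haveI := hp
  obtain ⟨n, hn1, hn2⟩ := FiniteField.card F p
  have h2 : p = 2 := by
    rw [hn2] at h
    have h3 := h.two_dvd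
    have h4 := Nat.prime_two.dvd_of_dvd_pow h3
    exact ((Nat.prime_dvd_prime_iff_eq Nat.prime_two hn1).mp h4).symm
  rw [← h2]
  exact hp

/-- in characteristic 2, `PSL = PGL` for degree 2 -/
theorem psl_pgl {F : Type*} [Field F] [Fintype F] [CharP F 2] :
    Nonempty (ProjGenLinGroup (Fin 2) F ≃* ProjectiveSpecialLinearGroup (Fin 2) F) := by
  have hinj : Function.Injective (ProjectiveSpecialLinearGroup.toPGL : ProjectiveSpecialLinearGroup (Fin 2) F →*
      ProjGenLinGroup (Fin 2) F) := ProjectiveSpecialLinearGroup.toPGL_injective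
  have hcard : Nat.card (ProjectiveSpecialLinearGroup (Fin 2) F) = Nat.card (ProjGenLinGroup (Fin 2) F) := by
    rw [H5.GL.card_PGL 2]
    exact (Nat.card_congr (H21.SL2e.equivPSL (F := F)).toEquiv).symm
  haveI : Finite (ProjGenLinGroup (Fin 2) F) := Quotient.finite _
  have hbij : Function.Bijective (ProjectiveSpecialLinearGroup.toPGL : ProjectiveSpecialLinearGroup (Fin 2) F →*
      ProjGenLinGroup (Fin 2) F) := (Nat.bijective_iff_injective_and_card _).mpr ⟨hinj, hcard⟩
  exact ⟨(MulEquiv.ofBijective _ hbij).symm⟩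

theorem main {G α : Type*} [Group G] [Finite G] [MulAction G α] [Fintype α] (hm : 3 ≤ Fintype.card α)
    (hodd : Odd (Fintype.card α)) (h : S3 G α) :
    ∃ a : ℕ, 1 ≤ a ∧ Fintype.card α = 2 ^ a + 1 ∧ ∃ (F : Type) (_ : Field F) (_ : Fintype F),
      Fintype.card F = 2 ^ a ∧ Nonempty (G ≃* SpecialLinearGroup (Fin 2) F) := by
  obtain ⟨F, hF, hFf, hc, ⟨e⟩⟩ := pgl_two h hm hodd
  have hev : Even (Fintype.card F) := by
    rw [← hc] at hodd
    rcases Nat.even_or_odd (Fintype.card F) with h1 | h1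
    · exact h1
    · exact absurd hodd (by
        rw [Nat.not_odd_iff_even]
        exact h1.add_one)
  haveI := even_card_charTwo hev
  obtain ⟨n, -, hn⟩ := FiniteField.card F 2
  obtain ⟨e2⟩ := psl_pgl (F := F)
  exact ⟨n, n.pos, by rw [← hc, hn], F, hF, hFf, hn, ⟨(e.trans e2).trans (H21.SL2e.equivPSL (F := F)).symm⟩⟩

/-- triply transitive and only the identity fixes three points -/
theorem mk_S3 {G α : Type*} [Group G] [MulAction G α] [Finite α] (h3 : MulAction.IsMultiplyPretransitive G α 3)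
    (hfix : ∀ g : G, 3 ≤ Nat.card (MulAction.fixedBy α g) → g = 1) : S3 G α := by
  refine ⟨fun h1 h2 h3' h4 h5 h6 => three_trans h3 h1 h2 h3' h4 h5 h6, ?_⟩
  intro g a b c hab hbc hac ha hb hc
  apply hfix
  classical
  have h1 : Set.ncard ({a, b, c} : Set α) = 3 := Set.ncard_eq_three.mpr ⟨a, b, c, hab, hac, hbc, rfl⟩
  rw [← h1, Nat.card_coe_set_eq]
  apply Set.ncard_le_ncard _ (Set.toFinite _)
  intro x hx
  rcases hx with rfl | rfl | rfl
  · exact ha
  · exact hb
  · exact hc

end Cfsg.Agent.H4.S3
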