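import Cfsg.Agent.H4_SpA
import Cfsg.Agent.H4_SpC
import Cfsg.Agent.H4_SpB_S0
import Cfsg.Agent.H8_Fi22eT
import Cfsg.Agent.H8_Fi22fT
import Cfsg.Agent.H8_Fi22gT
import Cfsg.Agent.H8_Fi23dT
import Cfsg.Agent.H8_Act5
import Cfsg.Prelude.Def_Spor_Fi24

/-!
In the Coxeter group Y₅₂₂ with `l = (abcdefh)^9` one has `(dcbdefdhi)^10 = 1`.
-/

set_option autoImplicit false
set_option maxRecDepth 100000

namespace Cfsg.Agent.H4.Spider

open Cfsg.Agent.H8 Cfsg.Agent.H8.CE Cfsg.Agent.H8.CS Cfsg.Agent.H8.Net Cfsg.Agent.H8.Act Cfsg.Agent.H8.Cox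
open Cfsg.Agent.H8.Act2 Cfsg.Agent.H4.SpR

universe u

/-- the relations on the letters -/
structure Ok {G : Type u} [Group G] (x : ℕ → G) : Prop where
  hic : ∀ y, y < 16 → x (il ic y) = (x y)⁻¹
  h0 : x 0 = 1
  hrels : ∀ w ∈ rels, ev x w = 1

/-- the universal relators -/
def RR : Set (FreeGroup ℕ) :=
  {r | (∃ y, y < 16 ∧ r = FreeGroup.of (il ic y) * FreeGroup.of y) ∨ r = FreeGroup.of 0 ∨
    ∃ w ∈ rels, r = ev FreeGroup.of w}

/-- the universal group -/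
abbrev P : Type := PresentedGroup RR

/-- its letters -/
def xg (y : ℕ) : P := PresentedGroup.of y

theorem ev_map {G K : Type*} [Group G] [Group K] (φ : G →* K) (x : ℕ → G) (w : List ℕ) :
    φ (ev x w) = ev (fun y => φ (x y)) w := by
  induction w with
  | nil => simp
  | cons y w ih => rw [ev_cons, map_mul, ih, ev_cons]

theorem mk_rel {r : FreeGroup ℕ} (hr : r ∈ RR) : PresentedGroup.mk RR r = 1 :=
  PresentedGroup.mk_eq_one_iff.2 (Subgroup.subset_normalClosure hr)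

theorem xg_ok : Ok xg where
  hic := by
    intro y hy
    have h := mk_rel (r := FreeGroup.of (il ic y) * FreeGroup.of y) (Or.inl ⟨y, hy, rfl⟩)
    rw [map_mul] at h
    exact eq_inv_of_mul_eq_one_left h
  h0 := mk_rel (r := FreeGroup.of 0) (Or.inr (Or.inl rfl))
  hrels := by
    intro w hw
    have h := mk_rel (r := ev FreeGroup.of w) (Or.inr (Or.inr ⟨w, hw, rfl⟩))
    rw [ev_map] at h
    exact h

/-- universal property -/
theorem lift_ok {G : Type u} [Group G] {x : ℕ → G} (h : Ok x) : ∃ Φ : P →* G, ∀ y, Φ (xg y) = x y := by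
  have hr : ∀ r ∈ RR, FreeGroup.lift x r = 1 := by
    rintro r (⟨y, hy, rfl⟩ | rfl | ⟨w, hw, rfl⟩)
    · rw [map_mul, FreeGroup.lift_apply_of, FreeGroup.lift_apply_of, h.hic y hy]
      simp
    · rw [FreeGroup.lift_apply_of]; exact h.h0
    · rw [ev_map]
      have e : (fun y => FreeGroup.lift x (FreeGroup.of y)) = x := by funext y; simp
      rw [e]
      exact h.hrels w hw
  exact ⟨PresentedGroup.toGroup hr, fun y => by simp [xg]⟩

/-- subgroups generated by lists of letters -/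
def Hl (l : List ℕ) : Subgroup P := Subgroup.closure (xg '' {y | y ∈ l})

theorem Hl_mono {l l' : List ℕ} (h : (l.all fun y => l'.contains y) = true) : Hl l ≤ Hl l' := by
  apply Subgroup.closure_mono
  apply Set.image_mono
  intro y hy
  rw [List.all_eq_true] at h
  have := h y hy
  rwa [List.contains_iff_mem] at this

theorem mem_Hl {l : List ℕ} {y : ℕ} (h : l.contains y = true) : xg y ∈ Hl l :=
  Subgroup.subset_closure ⟨y, by rwa [List.contains_iff_mem] at h, rfl⟩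

theorem b3 : (Hl [3, 4, 5, 6, 7, 8, 9]).relIndex (Hl [1, 2, 3, 4, 5, 6, 7, 8, 9]) ≤ 120 ∧
    (Hl [3, 4, 5, 6, 7, 8, 9]).relIndex (Hl [1, 2, 3, 4, 5, 6, 7, 8, 9]) ≠ 0 := by
  have h := SpC.bound (x := ren xg [0, 1, 2, 3, 4, 5, 6, 7, 8, 9]) (H := (Hl [3, 4, 5, 6, 7, 8, 9]))
    (ren_hic xg_ok.hic (by decide +kernel)) xg_ok.h0 (ren_rels xg_ok.hrels (by decide +kernel)) (by
      intro s hs
      simp only [SpC.L, List.mem_cons, List.not_mem_nil, or_false] at hs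
      rcases hs with rfl | rfl | rfl | rfl | rfl | rfl | rfl <;> exact mem_Hl (by decide))
  rw [ren_image [0, 1, 2, 3, 4, 5, 6, 7, 8, 9] 9 [1, 2, 3, 4, 5, 6, 7, 8, 9] (by decide) (by decide)] at h
  exact h

theorem b4 : (Hl [8, 7, 6, 5, 4, 9]).relIndex (Hl [8, 7, 6, 5, 4, 3, 9]) ≤ 56 ∧
    (Hl [8, 7, 6, 5, 4, 9]).relIndex (Hl [8, 7, 6, 5, 4, 3, 9]) ≠ 0 := by
  have h := Fi23dT.bound (x := ren xg [0, 8, 7, 6, 5, 4, 3, 9]) (H := (Hl [8, 7, 6, 5, 4, 9]))
    (ren_hic xg_ok.hic (by decide +kernel)) xg_ok.h0 (ren_rels xg_ok.hrels (by decide +kernel)) (by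
      intro s hs
      simp only [Fi23dT.L, List.mem_cons, List.not_mem_nil, or_false] at hs
      rcases hs with rfl | rfl | rfl | rfl | rfl | rfl <;> exact mem_Hl (by decide))
  rw [ren_image [0, 8, 7, 6, 5, 4, 3, 9] 7 [8, 7, 6, 5, 4, 3, 9] (by decide) (by decide)] at h
  exact h

theorem b5 : (Hl [7, 6, 5, 4, 9]).relIndex (Hl [8, 7, 6, 5, 4, 9]) ≤ 27 ∧
    (Hl [7, 6, 5, 4, 9]).relIndex (Hl [8, 7, 6, 5, 4, 9]) ≠ 0 := by
  have h := Fi22eT.bound (x := ren xg [0, 8, 7, 6, 5, 4, 9]) (H := (Hl [7, 6, 5, 4, 9]))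
    (ren_hic xg_ok.hic (by decide +kernel)) xg_ok.h0 (ren_rels xg_ok.hrels (by decide +kernel)) (by
      intro s hs
      simp only [Fi22eT.L, List.mem_cons, List.not_mem_nil, or_false] at hs
      rcases hs with rfl | rfl | rfl | rfl | rfl <;> exact mem_Hl (by decide))
  rw [ren_image [0, 8, 7, 6, 5, 4, 9] 6 [8, 7, 6, 5, 4, 9] (by decide) (by decide)] at h
  exact h

theorem b6 : (Hl [7, 6, 5, 4]).relIndex (Hl [7, 6, 5, 4, 9]) ≤ 16 ∧
    (Hl [7, 6, 5, 4]).relIndex (Hl [7, 6, 5, 4, 9]) ≠ 0 := by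
  have h := Fi22fT.bound (x := ren xg [0, 7, 6, 5, 4, 9]) (H := (Hl [7, 6, 5, 4]))
    (ren_hic xg_ok.hic (by decide +kernel)) xg_ok.h0 (ren_rels xg_ok.hrels (by decide +kernel)) (by
      intro s hs
      simp only [Fi22fT.L, List.mem_cons, List.not_mem_nil, or_false] at hs
      rcases hs with rfl | rfl | rfl | rfl <;> exact mem_Hl (by decide))
  rw [ren_image [0, 7, 6, 5, 4, 9] 5 [7, 6, 5, 4, 9] (by decide) (by decide)] at h
  exact h

theorem b7 : (⊥ : Subgroup P).relIndex (Hl [7, 6, 5, 4]) ≤ 120 ∧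
    (⊥ : Subgroup P).relIndex (Hl [7, 6, 5, 4]) ≠ 0 := by
  have h := Fi22gT.bound (x := ren xg [0, 7, 6, 5, 4]) (H := (⊥ : Subgroup P))
    (ren_hic xg_ok.hic (by decide +kernel)) xg_ok.h0 (ren_rels xg_ok.hrels (by decide +kernel)) (by
      intro s hs
      simp [Fi22gT.L] at hs)
  rw [ren_image [0, 7, 6, 5, 4] 4 [7, 6, 5, 4] (by decide) (by decide)] at h
  exact h

theorem c7 : Nat.card (Hl [7, 6, 5, 4]) ≤ 120 ∧ Nat.card (Hl [7, 6, 5, 4]) ≠ 0 := by
  have h := b7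
  rwa [Subgroup.relIndex_bot_left] at h

theorem c6 : Nat.card (Hl [7, 6, 5, 4, 9]) ≤ 16 * (120) ∧ Nat.card (Hl [7, 6, 5, 4, 9]) ≠ 0 :=
  card_le_of_relIndex (Hl_mono (by decide)) b6 c7

theorem c5 : Nat.card (Hl [8, 7, 6, 5, 4, 9]) ≤ 27 * (16 * (120)) ∧ Nat.card (Hl [8, 7, 6, 5, 4, 9]) ≠ 0 :=
  card_le_of_relIndex (Hl_mono (by decide)) b5 c6

theorem c4 : Nat.card (Hl [8, 7, 6, 5, 4, 3, 9]) ≤ 56 * (27 * (16 * (120))) ∧
    Nat.card (Hl [8, 7, 6, 5, 4, 3, 9]) ≠ 0 :=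
  card_le_of_relIndex (Hl_mono (by decide)) b4 c5

theorem Hl_eq : Hl [8, 7, 6, 5, 4, 3, 9] = Hl [3, 4, 5, 6, 7, 8, 9] :=
  le_antisymm (Hl_mono (by decide)) (Hl_mono (by decide))

theorem c3 : Nat.card (Hl [1, 2, 3, 4, 5, 6, 7, 8, 9]) ≤ 120 * (56 * (27 * (16 * (120)))) ∧
    Nat.card (Hl [1, 2, 3, 4, 5, 6, 7, 8, 9]) ≠ 0 :=
  card_le_of_relIndex (Hl_mono (by decide)) b3 (by rw [← Hl_eq]; exact c4)

theorem c3' : Nat.card (Hl [1, 2, 3, 4, 5, 6, 7, 8, 9]) ≤ 348364800 := c3.1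

instance instFiniteHl : Finite (Hl [1, 2, 3, 4, 5, 6, 7, 8, 9]) := Nat.finite_of_card_ne_zero c3.2

/-! ### The action on 1080 points -/

theorem hn : 1080 ≤ 2 ^ 11 := by decide

theorem xP_ok : Ok (xP SpB.sys hn SpB.inv_ok) where
  hic := fun y hy => xP_il _ _ _ y hy
  h0 := xP_eq_one _ _ _ _ rfl
  hrels := relP_of SpB.sys hn SpB.inv_ok SpB.rel_ok (by decide +kernel)

theorem exists_phi : ∃ φ : P →* Equiv.Perm (Fin 1080), Compat φ xg SpB.L := by
  obtain ⟨φ, hφ⟩ := lift_ok xP_ok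
  refine ⟨φ, ?_⟩
  intro y hy i
  rw [hφ y]
  exact xP_inv_apply SpB.sys hn SpB.inv_ok y hy i

/-- the action is faithful on the subgroup generated by the first nine letters -/
theorem inj {φ : P →* Equiv.Perm (Fin 1080)} (hc : Compat φ xg SpB.L) {g : P}
    (hg : g ∈ Hl [1, 2, 3, 4, 5, 6, 7, 8, 9]) (h1 : φ g = 1) : g = 1 := by
  classical
  let K := Hl [1, 2, 3, 4, 5, 6, 7, 8, 9]
  let l : List ℕ := [1, 2, 3, 4, 5, 6, 7, 8, 9]
  let x' : ℕ → K := fun y => if h : y ∈ l ∧ net SpB_S0.L y = net SpB.L y then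
    ⟨xg y, Subgroup.subset_closure ⟨y, h.1, rfl⟩⟩ else 1
  let φ' : K →* Equiv.Perm (Fin 1080) := φ.comp K.subtype
  have hc' : Compat φ' x' SpB_S0.L := by
    intro y hy i
    by_cases h : y ∈ l ∧ net SpB_S0.L y = net SpB.L y
    · have h1 : x' y = ⟨xg y, Subgroup.subset_closure ⟨y, h.1, rfl⟩⟩ := dif_pos h
      rw [h1]
      have h2 := hc y hy i
      rw [← h.2] at h2
      exact h2
    · have h1 : x' y = 1 := dif_neg h
      have h2 : net SpB_S0.L y = .nil := by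
        rcases SpB_S0.sub_ok y hy with h3 | h3
        · exact absurd h3 h
        · exact h3
      rw [h1, h2, map_one, inv_one]
      rfl
  have h := order_eq (φ := φ') SpB_S0.sys
    (exists_g SpB_S0.sys hn hc' SpB_S0.sg_ok (by decide)) SpB_S0.levs SpB_S0.chain
    (by rw [SpB_S0.prodM_levs]; exact c3')
  have h3 : φ' ⟨g, hg⟩ = φ' 1 := by
    rw [map_one]; exact h1
  exact congrArg Subtype.val (h.2 h3)

theorem spider_P : ev xg spw = 1 := by
  obtain ⟨φ, hc⟩ := exists_phi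
  refine inj hc ?_ ?_
  · exact SpA.word0 (x := xg) (H := Hl [1, 2, 3, 4, 5, 6, 7, 8, 9]) xg_ok.hic xg_ok.h0
      (by
        intro w hw
        have h : (SpA.rels.all fun w => rels.contains w) = true := by decide +kernel
        rw [List.all_eq_true] at h
        have := h w hw
        rw [List.contains_iff_mem] at this
        exact xg_ok.hrels w this) (by
      intro s hs
      simp only [SpA.L, List.mem_cons, List.not_mem_nil, or_false] at hs
      rcases hs with rfl | rfl | rfl | rfl | rfl | rfl | rfl | rfl | rfl <;> exact mem_Hl (by decide))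
  · apply inv_injective
    ext i
    rw [compat_ev hc spw (by decide) i, eqW_sound SpB.sys hn SpB.spider_ok i i.2]
    simp [tr]

/-- the spider relation for letters -/
theorem spider_x {G : Type u} [Group G] {x : ℕ → G} (h : Ok x) :
    (x 6 * x 5 * x 4 * x 6 * x 7 * x 8 * x 6 * x 9 * x 10) ^ 10 = 1 := by
  obtain ⟨Φ, hΦ⟩ := lift_ok h
  have h1 := congrArg Φ spider_P
  rw [ev_map, map_one] at h1
  have e : (fun y => Φ (xg y)) = x := by funext y; exact hΦ y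
  rw [e, spw, ev_powW] at h1
  simpa [mul_assoc] using h1

end Cfsg.Agent.H4.Spider
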