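import Cfsg.Agent.H8_Cox

/-!
The Coxeter diagram Y₅₂₂ together with `l = (abcdefh)^9`: letters.
`l = 1, k = 2, a = 3, b = 4, c = 5, d = 6, e = 7, f = 8, h = 9, i = 10`.
-/

set_option autoImplicit false
set_option maxRecDepth 100000

namespace Cfsg.Agent.H4.SpR

open Cfsg.Agent.H8 Cfsg.Agent.H8.CE Cfsg.Agent.H8.Net Cfsg.Agent.H8.Act Cfsg.Agent.H8.Cox

/-- inverse letters -/
def ic : ℕ := 11649936536080

/-- the label of an edge -/
def lab (i j : ℕ) : ℕ :=
  if [(1, 2), (2, 3), (3, 4), (4, 5), (5, 6), (6, 7), (7, 8), (6, 9), (9, 10)].contains (i, j) ||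
    [(1, 2), (2, 3), (3, 4), (4, 5), (5, 6), (6, 7), (7, 8), (6, 9), (9, 10)].contains (j, i) then 3 else 2

/-- all the pairs of distinct letters -/
def prs : List (ℕ × ℕ) :=
  (List.range' 1 10).flatMap fun i => ((List.range' 1 10).filter fun j => i != j).map fun j => (i, j)

/-- relators -/
def rels : List (List ℕ) := (prs.map fun p => coxW p.1 p.2 (lab p.1 p.2)) ++ [1 :: powW [3, 4, 5, 6, 7, 8, 9] 9]

/-- the spider word -/
def spw : List ℕ := powW [6, 5, 4, 6, 7, 8, 6, 9, 10] 10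

end Cfsg.Agent.H4.SpR
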