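import Cfsg.Agent.H16_POm4
import Cfsg.Agent.H5_OmCard
import Cfsg.Agent.H16_FAut

set_option autoImplicit false

/-! Orders of automorphism groups from full families. -/

namespace Cfsg.Agent.H5.AutO

open Matrix Module Cfsg.Agent.H16.Gam Cfsg.Agent.H16.AutG Cfsg.Agent.H16.AutL
open QuadraticMap (polar)

section Fam

variable {S ι F : Type*} [Group S] [Fintype ι] [DecidableEq ι] [Field F] [Finite F]

theorem card_hom {G H : Type*} [Group G] [Group H] (f : G →* H) : Nat.card f.ker * Nat.card f.range = Nat.card G := by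
  rw [← Subgroup.index_ker, Subgroup.card_mul_index]

/-- counting automorphisms of a full family. -/
theorem card_aut [Nonempty ι] {Φ : Fam S ι F} (hΦ : Φ.Full) (hs : ∀ σ : F ≃+* F, ∃ x : Φ.Γ, (x : Gm ι F).right = σ) :
    Nat.card (MulAut (S ⧸ Subgroup.center S)) * Nat.card Fˣ = Nat.card Φ.N * Nat.card (F ≃+* F) := by
  have h1 : Nat.card Φ.T.ker = Nat.card Fˣ := by
    refine (Nat.card_congr (Equiv.ofBijective
      (fun c : Fˣ => (⟨⟨SemidirectProduct.inl (scl ι c), Φ.sc c⟩, (Φ.T_eq_one_iff _).mpr ⟨c, rfl⟩⟩ : Φ.T.ker)) ⟨?_, ?_⟩)).symm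
    · intro c d h
      have h2 := congrArg (fun x : Φ.T.ker => ((x : Φ.Γ) : Gm ι F)) h
      exact sc_inj (SemidirectProduct.inl_injective h2)
    · rintro ⟨x, hx⟩
      obtain ⟨c, hc⟩ := (Φ.T_eq_one_iff x).mp hx
      exact ⟨c, Subtype.ext (Subtype.ext hc.symm)⟩
  have h2 := card_hom Φ.T
  rw [MonoidHom.range_eq_top.mpr hΦ, h1, Subgroup.card_top] at h2
  let R : Φ.Γ →* (F ≃+* F) := SemidirectProduct.rightHom.comp Φ.Γ.subtype
  have h3 : Nat.card R.ker = Nat.card Φ.N := by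
    refine (Nat.card_congr (Equiv.ofBijective (fun g : Φ.N => (⟨Φ.nin g, ?_⟩ : R.ker)) ⟨?_, ?_⟩)).symm
    · rw [MonoidHom.mem_ker]
      change ((Φ.nin g : Φ.Γ) : Gm ι F).right = 1
      rw [Φ.coe_nin, SemidirectProduct.right_inl]
    · intro g h hgh
      have h4 := congrArg (fun x : R.ker => ((x : Φ.Γ) : Gm ι F)) hgh
      exact Subtype.ext (SemidirectProduct.inl_injective h4)
    · rintro ⟨x, hx⟩
      have hx' : (x : Gm ι F).right = 1 := hx
      have h4 : SemidirectProduct.inl (x : Gm ι F).left = (x : Gm ι F) := by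
        apply SemidirectProduct.ext
        · rfl
        · exact hx'.symm
      exact ⟨⟨(x : Gm ι F).left, by rw [Φ.mem_N, h4]; exact x.2⟩, Subtype.ext (Subtype.ext h4)⟩
  have h4 := card_hom R
  have h5 : R.range = ⊤ := by
    rw [MonoidHom.range_eq_top]
    intro σ
    obtain ⟨x, hx⟩ := hs σ
    exact ⟨x, hx⟩
  rw [h5, h3, Subgroup.card_top] at h4
  rw [h4, ← h2, mul_comm]

end Fam

section Sim

variable {ι : Type} [Fintype ι] [DecidableEq ι] {F : Type*} [Field F] [Finite F]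

open Cfsg.Agent.H16.POm
open Cfsg.Agent.H16.Quad hiding map_smul map_add map_sub

theorem exists_ns (A : OD ι F) : ∃ v, A.Q v ≠ 0 :=
  exists_nonsing A.nd (by rw [Module.finrank_fintype_fun_eq_card]; have := A.h7; omega)

/-- the multiplier. -/
theorem exists_mult (A : OD ι F) : ∃ μ : (H16.POm.fam A).N →* Fˣ, ∀ (g : (H16.POm.fam A).N) (v : ι → F),
    A.Q ((((g : GL ι F)) : Matrix ι ι F) *ᵥ v) = (μ g : F) * A.Q v := by
  obtain ⟨v₀, hv₀⟩ := exists_ns A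
  have h1 : ∀ g : (H16.POm.fam A).N, ∃ c : Fˣ, ∀ v : ι → F, A.Q ((((g : GL ι F)) : Matrix ι ι F) *ᵥ v) = (c : F) * A.Q v :=
    fun g => H16.POm.sim_mem_Gam.mp g.2
  choose c hc using h1
  refine ⟨MonoidHom.mk' c ?_, hc⟩
  intro g h
  apply Units.ext
  have h2 := hc (g * h) v₀
  rw [Subgroup.coe_mul, H16.PSp.coe_mul_mulVec, hc, hc, ← mul_assoc] at h2
  exact (mul_right_cancel₀ hv₀ h2).symm

theorem card_mult_ker (A : OD ι F) {μ : (H16.POm.fam A).N →* Fˣ} (hμ : ∀ (g : (H16.POm.fam A).N) (v : ι → F),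
    A.Q ((((g : GL ι F)) : Matrix ι ι F) *ᵥ v) = (μ g : F) * A.Q v) :
    Nat.card μ.ker = Nat.card (Cfsg.isometryGroup F ⇑A.Q) := by
  obtain ⟨v₀, hv₀⟩ := exists_ns A
  refine (Nat.card_congr (Equiv.ofBijective (fun g : Cfsg.isometryGroup F ⇑A.Q =>
    (⟨⟨g.1, H16.POm.iso_mem_Gam g.2⟩, ?_⟩ : μ.ker)) ⟨?_, ?_⟩)).symm
  · rw [MonoidHom.mem_ker]
    apply Units.ext
    have h1 := hμ ⟨g.1, H16.POm.iso_mem_Gam g.2⟩ v₀
    have h2 := mem_isometryGroup.mp g.2 v₀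
    apply mul_right_cancel₀ hv₀
    rw [← h1, Units.val_one, one_mul]
    exact h2
  · intro g h hgh
    have := congrArg (fun x : μ.ker => ((x : (H16.POm.fam A).N) : GL ι F)) hgh
    exact Subtype.ext this
  · rintro ⟨g, hg⟩
    refine ⟨⟨(g : GL ι F), mem_isometryGroup.mpr fun v => ?_⟩, rfl⟩
    have h1 := hμ g v
    rw [MonoidHom.mem_ker.mp hg, Units.val_one, one_mul] at h1
    exact h1

theorem range_even (A : OD ι F) {m : ℕ} (hm : Fintype.card ι = 2 * m) {μ : (H16.POm.fam A).N →* Fˣ}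
    (hμ : ∀ (g : (H16.POm.fam A).N) (v : ι → F), A.Q ((((g : GL ι F)) : Matrix ι ι F) *ᵥ v) = (μ g : F) * A.Q v) :
    μ.range = ⊤ := by
  obtain ⟨v₀, hv₀⟩ := exists_ns A
  rw [MonoidHom.range_eq_top]
  intro c
  have h7 := A.h7
  obtain ⟨g, hg⟩ := exists_similarity A.nd (m := m - 1)
    (by rw [Module.finrank_fintype_fun_eq_card]; omega) c.ne_zero
  have hg' : (H16.Quad.glE F ι).symm g ∈ (H16.POm.fam A).N := by
    refine H16.POm.sim_mem_Gam.mpr ⟨c, fun v => ?_⟩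
    rw [← H16.Quad.glE_apply, MulEquiv.apply_symm_apply]
    exact hg v
  refine ⟨⟨_, hg'⟩, ?_⟩
  apply Units.ext
  apply mul_right_cancel₀ hv₀
  rw [← hμ]
  change A.Q ((((H16.Quad.glE F ι).symm g : GL ι F) : Matrix ι ι F) *ᵥ v₀) = _
  rw [← H16.Quad.glE_apply, MulEquiv.apply_symm_apply]
  exact hg v₀

theorem range_odd (A : OD ι F) {m : ℕ} (hm : Fintype.card ι = 2 * m + 1) {μ : (H16.POm.fam A).N →* Fˣ}
    (hμ : ∀ (g : (H16.POm.fam A).N) (v : ι → F), A.Q ((((g : GL ι F)) : Matrix ι ι F) *ᵥ v) = (μ g : F) * A.Q v) :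
    μ.range = (powMonoidHom 2 : Fˣ →* Fˣ).range := by
  obtain ⟨v₀, hv₀⟩ := exists_ns A
  apply le_antisymm
  · rintro _ ⟨g, rfl⟩
    set c := μ g with hc
    have h1 := gram_map (Q := (c : F) • A.Q) (Q' := A.Q) (φ := H16.Quad.glE F ι (g : GL ι F)) (fun v => hμ g v) (Pi.basisFun F ι)
    obtain ⟨d, hd, h2⟩ := det_gram_basis A.Q ((Pi.basisFun F ι).map (H16.Quad.glE F ι (g : GL ι F))) (Pi.basisFun F ι)
    have h3 : H16.Quad.gram ((c : F) • A.Q) (Pi.basisFun F ι) = (c : F) • H16.Quad.gram A.Q (Pi.basisFun F ι) := by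
      ext i j
      simp only [H16.Quad.gram, Matrix.of_apply, Matrix.smul_apply, smul_eq_mul]
      rw [polar_smulQ]
    rw [h1, h3, Matrix.det_smul, hm] at h2
    have h4 := det_gram_ne_zero A.nd (Pi.basisFun F ι)
    have h5 := mul_right_cancel₀ h4 h2
    refine ⟨Units.mk0 d hd / c ^ m, ?_⟩
    rw [powMonoidHom_apply, div_pow, div_eq_iff_eq_mul]
    apply Units.ext
    rw [Units.val_mul, Units.val_pow_eq_pow_val, Units.val_pow_eq_pow_val, Units.val_pow_eq_pow_val, Units.val_mk0]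
    rw [sq d, ← h5]; ring
  · rintro _ ⟨c, rfl⟩
    refine ⟨⟨scl ι c, (H16.POm.fam A).sc c⟩, ?_⟩
    apply Units.ext
    apply mul_right_cancel₀ hv₀
    rw [← hμ]
    change A.Q (((scl ι c : GL ι F) : Matrix ι ι F) *ᵥ v₀) = _
    rw [H16.PSp.scl_mulVec, H16.Quad.map_smul]
    simp [sq]

theorem card_sq (h2 : (2 : F) ≠ 0) : 2 * Nat.card (powMonoidHom 2 : Fˣ →* Fˣ).range = Nat.card Fˣ := by
  have h1 := card_hom (powMonoidHom 2 : Fˣ →* Fˣ)
  have h3 : Nat.card (powMonoidHom 2 : Fˣ →* Fˣ).ker = 2 := by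
    rw [Nat.card_eq_two_iff]
    refine ⟨1, ⟨-1, by rw [MonoidHom.mem_ker, powMonoidHom_apply]; simp⟩, ?_, ?_⟩
    · intro h
      have h4 := congrArg (fun x : (powMonoidHom 2 : Fˣ →* Fˣ).ker => ((x : Fˣ) : F)) h
      have h5 : (1 : F) = -1 := by simpa using h4
      exact h2 (by linear_combination h5)
    · rw [Set.eq_univ_iff_forall]
      rintro ⟨x, hx⟩
      rw [MonoidHom.mem_ker, powMonoidHom_apply] at hx
      have h4 : (x : F) ^ 2 = 1 := by rw [← Units.val_pow_eq_pow_val, hx, Units.val_one]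
      rcases mul_self_eq_one_iff.mp ((sq (x : F)).symm.trans h4) with h | h
      · left; exact Subtype.ext (Units.ext h)
      · right; exact Subtype.ext (Units.ext (by simpa using h))
  rw [h3] at h1
  exact h1

theorem card_even {A : OD ι F} (hA : Good A) {m : ℕ} (hm : Fintype.card ι = 2 * m)
    (hs : ∀ σ : F ≃+* F, ∃ x : (H16.POm.fam A).Γ, (x : Gm ι F).right = σ) :
    Nat.card (MulAut (Cfsg.POmega F ⇑A.Q)) = Nat.card (Cfsg.isometryGroup F ⇑A.Q) * Nat.card (F ≃+* F) := by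
  have hι : Nonempty ι := Fintype.card_pos_iff.mp (by have := A.h7; omega)
  have h1 := card_aut (H16.POm.full hA) hs
  obtain ⟨μ, hμ⟩ := exists_mult A
  have h2 := card_hom μ
  rw [range_even A hm hμ, card_mult_ker A hμ, Subgroup.card_top] at h2
  rw [← h2] at h1
  have h3 : 0 < Nat.card Fˣ := Nat.card_pos
  apply Nat.eq_of_mul_eq_mul_right h3
  refine h1.trans ?_
  ring

theorem card_odd (h2 : (2 : F) ≠ 0) {A : OD ι F} (hA : Good A) {m : ℕ} (hm : Fintype.card ι = 2 * m + 1)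
    (hs : ∀ σ : F ≃+* F, ∃ x : (H16.POm.fam A).Γ, (x : Gm ι F).right = σ) :
    2 * Nat.card (MulAut (Cfsg.POmega F ⇑A.Q)) = Nat.card (Cfsg.isometryGroup F ⇑A.Q) * Nat.card (F ≃+* F) := by
  have hι : Nonempty ι := Fintype.card_pos_iff.mp (by have := A.h7; omega)
  have h1 := card_aut (H16.POm.full hA) hs
  obtain ⟨μ, hμ⟩ := exists_mult A
  have h3 := card_hom μ
  rw [range_odd A hm hμ, card_mult_ker A hμ] at h3
  have h4 := card_sq (F := F) h2
  have h5 : 0 < Nat.card Fˣ := Nat.card_pos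
  apply Nat.eq_of_mul_eq_mul_right h5
  have h6 : 2 * Nat.card (MulAut (Cfsg.POmega F ⇑A.Q)) * Nat.card Fˣ = 2 * (Nat.card (MulAut (Cfsg.POmega F ⇑A.Q)) * Nat.card Fˣ) := by ring
  rw [h6]
  change 2 * (Nat.card (MulAut (Cfsg.Omega F ⇑A.Q ⧸ Subgroup.center (Cfsg.Omega F ⇑A.Q))) * Nat.card Fˣ) = _
  rw [h1, ← h3, ← h4]
  ring

end Sim

section Std

open Cfsg.Agent.H16.POm
open Cfsg.Agent.H16.Quad hiding map_smul map_add map_sub

variable {F : Type*} [Field F] [Fintype F]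

theorem two_dich {p f : ℕ} [hp : Fact p.Prime] (hF : Fintype.card F = p ^ f) (hf : 1 ≤ f) : (p = 2 ∧ (2 : F) = 0) ∨ (p ≠ 2 ∧ (2 : F) ≠ 0) := by
  have hch : CharP F p := by
    obtain ⟨q, hq⟩ := CharP.exists F
    have hqp : q.Prime := CharP.char_is_prime F q
    obtain ⟨n, hn, hn'⟩ := FiniteField.card F q
    have h1 : q ∣ p ^ f := by rw [← hF, hn']; exact dvd_pow_self q n.ne_zero
    have h2 : q = p := (Nat.prime_dvd_prime_iff_eq hqp Fact.out).mp (hqp.dvd_of_dvd_pow h1)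
    rwa [← h2]
  by_cases h : p = 2
  · left
    subst h
    exact ⟨rfl, by exact_mod_cast CharP.cast_eq_zero F 2⟩
  · right
    refine ⟨h, fun h0 => h ?_⟩
    have h1 : ((2 : ℕ) : F) = 0 := by exact_mod_cast h0
    rw [CharP.cast_eq_zero_iff F p] at h1
    exact (Nat.prime_dvd_prime_iff_eq Fact.out Nat.prime_two).mp h1

theorem iso_odd (h2 : (2 : F) ≠ 0) {m : ℕ} (hm : 3 ≤ m) :
    Nat.card (Cfsg.isometryGroup F ⇑(oddQ F m)) = 4 * Nat.card (Cfsg.POmega F ⇑(oddQ F m)) := by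
  have hQ := nd_oddQ h2 m
  have hc : 5 ≤ Fintype.card (Unit ⊕ (Fin m ⊕ Fin m)) := by simp; omega
  have h3 : Nat.card (Subgroup.center (Cfsg.Omega F ⇑(oddQ F m))) = 1 := by
    apply H5.OmSim.center_eq_bot hQ hc
    rintro ⟨g, hg, hg1⟩
    obtain ⟨δ, θ, -, h4, h5, -⟩ := iso_chars hQ (Or.inl (card_ne_two_of h2))
    have h6 := h5 g
    rw [((h4 g).1 hg).1, hg1, Matrix.det_neg, Matrix.det_one] at h6
    have h7 : Odd (Fintype.card (Unit ⊕ (Fin m ⊕ Fin m))) := by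
      rw [Fintype.card_sum, Fintype.card_sum, Fintype.card_unit, Fintype.card_fin]
      exact ⟨m, by ring⟩
    rw [h7.neg_one_pow] at h6
    simp at h6
    exact h2 (by linear_combination -h6)
  have h8 : (Cfsg.Omega F ⇑(oddQ F m)).index = 4 := Omega_index_odd hQ h2 (by
    rw [Module.finrank_fintype_fun_eq_card]; omega)
  rw [H5.OmSim.card_iso_eq, h3, h8, mul_one]

theorem semi_odd (h2 : (2 : F) ≠ 0) {m : ℕ} (hm : 3 ≤ m) (σ : F ≃+* F) :
    ∃ x : (H16.POm.fam (odO F h2 hm)).Γ, x.1.right = σ := by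
  refine ⟨⟨⟨1, σ⟩, ⟨1, fun v => ?_⟩⟩, rfl⟩
  change oddQ F m (((1 : GL (Unit ⊕ (Fin m ⊕ Fin m)) F) : Matrix (Unit ⊕ (Fin m ⊕ Fin m)) (Unit ⊕ (Fin m ⊕ Fin m)) F) *ᵥ (fun i => σ (v i))) = _ * σ (oddQ F m v)
  rw [Units.val_one, Matrix.one_mulVec, Units.val_one, one_mul, oddQ_apply, oddQ_apply]
  simp only [Cfsg.quadFormOdd, map_add, map_sum, map_mul, map_pow]

theorem semi_minus {m : ℕ} {a b : F}
    (hab : ∀ z₁ z₂ : F, z₁ ^ 2 + a * z₁ * z₂ + b * z₂ ^ 2 = 0 → z₁ = 0 ∧ z₂ = 0) (hm : 3 ≤ m) (σ : F ≃+* F) :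
    ∃ x : (H16.POm.fam (odM hab hm)).Γ, x.1.right = σ := by
  have hab' : ∀ z₁ z₂ : F, z₁ ^ 2 + σ a * z₁ * z₂ + σ b * z₂ ^ 2 = 0 → z₁ = 0 ∧ z₂ = 0 := by
    intro z₁ z₂ h
    have h1 := congrArg σ.symm h
    simp only [map_add, map_mul, map_pow, RingEquiv.symm_apply_apply, map_zero] at h1
    obtain ⟨h2, h3⟩ := hab _ _ h1
    exact ⟨(map_eq_zero σ.symm).mp h2, (map_eq_zero σ.symm).mp h3⟩
  obtain ⟨φ, hφ⟩ := IsMinus.isom (nd_minusQ m hab') (nd_minusQ m hab) (minusQ_isMinus m hab') (minusQ_isMinus m hab)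
  refine ⟨⟨⟨(H16.Quad.glE F _).symm φ, σ⟩, ⟨1, fun v => ?_⟩⟩, rfl⟩
  change minusQ F m a b ((((H16.Quad.glE F _).symm φ : GL _ F) : Matrix _ _ F) *ᵥ (fun i => σ (v i))) = _ * σ (minusQ F m a b v)
  rw [← H16.Quad.glE_apply, MulEquiv.apply_symm_apply, hφ, Units.val_one, one_mul, minusQ_apply, minusQ_apply]
  simp only [Cfsg.quadFormMinus, map_add, map_sum, map_mul, map_pow]

theorem semi_plus {m : ℕ} (hm : 4 ≤ m) (σ : F ≃+* F) :
    ∃ x : (H16.POm.fam (odP F hm)).Γ, x.1.right = σ := by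
  refine ⟨⟨⟨1, σ⟩, ⟨1, fun v => ?_⟩⟩, rfl⟩
  change plusQ F m (((1 : GL (Fin m ⊕ Fin m) F) : Matrix (Fin m ⊕ Fin m) (Fin m ⊕ Fin m) F) *ᵥ (fun i => σ (v i))) = _ * σ (plusQ F m v)
  rw [Units.val_one, Matrix.one_mulVec, Units.val_one, one_mul, plusQ_apply, plusQ_apply]
  simp only [Cfsg.quadFormPlus, map_sum, map_mul]

end Std


end Cfsg.Agent.H5.AutO
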