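import Mathlib
import Cfsg.Agent.H5_Exc4
import Cfsg.Agent.S0248
import Cfsg.Agent.H5_Quad

set_option autoImplicit false
set_option linter.unusedSectionVars false

/-! `PΩ_6^+(q) ≅ PSL_4(q)`. -/

namespace Cfsg.Agent.H5.Exc

open Matrix Module
open QuadraticMap (polar)
open Cfsg.Agent.H16.Quad hiding map_smul map_add map_sub

variable {F : Type*} [Field F]

local notation "V6" => (Fin 3 ⊕ Fin 3 → F)
local notation "M4" => Matrix (Fin 4) (Fin 4) F

/-- the Pfaffian -/
def pf (M : M4) : F := M 0 1 * M 2 3 - M 0 2 * M 1 3 + M 0 3 * M 1 2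

/-- alternating matrices -/
def Alt (M : M4) : Prop := (∀ i, M i i = 0) ∧ ∀ i j, M i j = - M j i

theorem alt_conj (g M : M4) (h : Alt M) : Alt (g * M * gᵀ) := by
  obtain ⟨h1, h2⟩ := h
  have e : ∀ i j, (g * M * gᵀ) i j = ∑ k, ∑ l, g i k * M k l * g j l := by
    intro i j
    rw [Matrix.mul_apply, Finset.sum_comm]
    apply Finset.sum_congr rfl
    intro l _
    rw [Matrix.mul_apply, Finset.sum_mul]
    rfl
  have h10 := h2 1 0
  have h20 := h2 2 0
  have h30 := h2 3 0
  have h21 := h2 2 1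
  have h31 := h2 3 1
  have h32 := h2 3 2
  constructor
  · intro i
    rw [e]
    simp only [Fin.sum_univ_four, h1, h10, h20, h30, h21, h31, h32]
    ring
  · intro i j
    rw [e, e]
    simp only [Fin.sum_univ_four, h1, h10, h20, h30, h21, h31, h32]
    ring

theorem pf_conj (g M : M4) (h : Alt M) : pf (g * M * gᵀ) = g.det * pf M := by
  obtain ⟨h1, h2⟩ := h
  have e : ∀ i j, (g * M * gᵀ) i j = ∑ k, ∑ l, g i k * M k l * g j l := by
    intro i j
    rw [Matrix.mul_apply, Finset.sum_comm]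
    apply Finset.sum_congr rfl
    intro l _
    rw [Matrix.mul_apply, Finset.sum_mul]
    rfl
  have h10 := h2 1 0
  have h20 := h2 2 0
  have h30 := h2 3 0
  have h21 := h2 2 1
  have h31 := h2 3 1
  have h32 := h2 3 2
  rw [pf, pf]
  rw [e, e, e, e, e, e]
  simp only [Fin.sum_univ_four, h1, h10, h20, h30, h21, h31, h32]
  simp only [Matrix.det_succ_row_zero, Fin.sum_univ_succ]
  simp [Matrix.submatrix, Fin.succAbove]
  ring

/-- coordinates to alternating matrices -/
def toM6 : V6 →ₗ[F] M4 where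
  toFun x := !![0, x (.inl 0), x (.inl 1), x (.inl 2); - x (.inl 0), 0, x (.inr 2), - x (.inr 1);
    - x (.inl 1), - x (.inr 2), 0, x (.inr 0); - x (.inl 2), x (.inr 1), - x (.inr 0), 0]
  map_add' x y := by ext i j; fin_cases i <;> fin_cases j <;> simp <;> ring
  map_smul' c x := by ext i j; fin_cases i <;> fin_cases j <;> simp

/-- coordinates of a matrix -/
def ofM6 : M4 →ₗ[F] V6 where
  toFun M := Sum.elim ![M 0 1, M 0 2, M 0 3] ![M 2 3, - M 1 3, M 1 2]
  map_add' x y := by ext (i | i) <;> fin_cases i <;> simp; ring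
  map_smul' c x := by ext (i | i) <;> fin_cases i <;> simp

theorem ofM6_toM6 (x : V6) : ofM6 (toM6 x) = x := by
  ext (i | i) <;> fin_cases i <;> simp [ofM6, toM6]

theorem alt_toM6 (x : V6) : Alt (toM6 x) := by
  constructor
  · intro i; fin_cases i <;> simp [toM6]
  · intro i j; fin_cases i <;> fin_cases j <;> simp [toM6]

theorem toM6_ofM6 {M : M4} (h : Alt M) : toM6 (ofM6 M) = M := by
  obtain ⟨h1, h2⟩ := h
  ext i j
  fin_cases i <;> fin_cases j
  · exact (h1 0).symm
  · rfl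
  · rfl
  · rfl
  · exact (h2 1 0).symm
  · exact (h1 1).symm
  · rfl
  · exact neg_neg _
  · exact (h2 2 0).symm
  · exact (h2 2 1).symm
  · exact (h1 2).symm
  · rfl
  · exact (h2 3 0).symm
  · exact (h2 3 1).symm
  · exact (h2 3 2).symm
  · exact (h1 3).symm

theorem pf_toM6 (x : V6) : pf (toM6 x) = plusQ F 3 x := by
  rw [plusQ_apply, Cfsg.quadFormPlus, pf]
  simp [toM6, Fin.sum_univ_three]

/-- the action on coordinates -/
def ad6 (g : M4) : V6 →ₗ[F] V6 :=
  ofM6 ∘ₗ (LinearMap.mulRight F gᵀ) ∘ₗ (LinearMap.mulLeft F g) ∘ₗ toM6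

theorem ad6_apply (g : M4) (x : V6) : ad6 g x = ofM6 (g * toM6 x * gᵀ) := rfl

theorem toM6_ad6 (g : M4) (x : V6) : toM6 (ad6 g x) = g * toM6 x * gᵀ := by
  rw [ad6_apply, toM6_ofM6 (alt_conj g _ (alt_toM6 x))]

theorem ad6_one : ad6 (1 : M4) = LinearMap.id := by
  apply LinearMap.ext
  intro x
  rw [ad6_apply, Matrix.transpose_one, one_mul, mul_one, ofM6_toM6]; rfl

theorem ad6_mul (s t : M4) : ad6 (s * t) = ad6 s ∘ₗ ad6 t := by
  apply LinearMap.ext
  intro x
  rw [LinearMap.comp_apply, ad6_apply s, toM6_ad6, ad6_apply, Matrix.transpose_mul]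
  simp only [mul_assoc]

theorem Q_ad6 (g : M4) (x : V6) : plusQ F 3 (ad6 g x) = g.det * plusQ F 3 x := by
  rw [← pf_toM6, toM6_ad6, pf_conj _ _ (alt_toM6 x), pf_toM6]

theorem exists_ad6 : ∃ f : Matrix.SpecialLinearGroup (Fin 4) F →* OG (plusQ F 3), ∀ g v, (f g).1 v = ad6 g v := by
  apply exists_OG_hom
  · rw [Matrix.SpecialLinearGroup.coe_one, ad6_one]
  · intro s t
    rw [Matrix.SpecialLinearGroup.coe_mul, ad6_mul]
  · intro s v
    rw [Q_ad6, s.2, one_mul]

theorem minor_of_fix {g : M4} (h : ∀ v, ad6 g v = v) (i j k l : Fin 4) (hkl : k ≠ l) :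
    g i k * g j l - g i l * g j k = if i = k ∧ j = l then 1 else if i = l ∧ j = k then -1 else 0 := by
  have hA : Alt (Matrix.single k l (1 : F) - Matrix.single l k (1 : F)) := by
    constructor
    · intro a
      rw [Matrix.sub_apply, Matrix.single_apply, Matrix.single_apply]
      have h1 : ¬ (k = a ∧ l = a) := fun h => hkl (h.1.trans h.2.symm)
      have h2 : ¬ (l = a ∧ k = a) := fun h => hkl (h.2.trans h.1.symm)
      rw [if_neg h1, if_neg h2, sub_zero]
    · intro a b
      rw [Matrix.sub_apply, Matrix.sub_apply, Matrix.single_apply, Matrix.single_apply, Matrix.single_apply, Matrix.single_apply]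
      have e1 : (k = a ∧ l = b) ↔ (l = b ∧ k = a) := and_comm
      have e2 : (l = a ∧ k = b) ↔ (k = b ∧ l = a) := and_comm
      simp only [e1, e2]
      ring
  have h1 := toM6_ad6 g (ofM6 (Matrix.single k l (1 : F) - Matrix.single l k (1 : F)))
  rw [h, toM6_ofM6 hA] at h1
  have h2 := congrFun (congrFun h1 i) j
  have h3 : (g * (Matrix.single k l (1 : F) - Matrix.single l k (1 : F)) * gᵀ) i j = g i k * g j l - g i l * g j k := by
    rw [mul_sub, sub_mul, Matrix.sub_apply]
    simp [Matrix.mul_apply, Matrix.single_apply, Finset.sum_ite_eq, ite_and, Finset.sum_mul]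
  rw [h3, Matrix.sub_apply, Matrix.single_apply, Matrix.single_apply] at h2
  rw [← h2]
  by_cases a1 : i = k
  · subst a1
    by_cases a2 : j = l
    · subst a2; simp [hkl, hkl.symm]
    · simp [a2, Ne.symm a2, hkl, hkl.symm]
  · by_cases a3 : i = l
    · subst a3
      by_cases a4 : j = k
      · subst a4; simp [hkl, hkl.symm]
      · simp [a4, Ne.symm a4, a1, Ne.symm a1]
    · simp [a1, Ne.symm a1, a3, Ne.symm a3]

theorem scalar_of_fix6 {g : M4} (h : ∀ v, ad6 g v = v) : ∃ c : F, c * c = 1 ∧ g = c • (1 : M4) := by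
  have hoff : ∀ i k, i ≠ k → g i k = 0 := by
    intro i k hik
    obtain ⟨l, hl1, hl2⟩ : ∃ l : Fin 4, l ≠ i ∧ l ≠ k := by revert i k; decide
    have m1 := minor_of_fix h k l k l hl2.symm
    have m2 := minor_of_fix h i k k l hl2.symm
    have m3 := minor_of_fix h i l k l hl2.symm
    simp [hik, hik.symm, hl1, hl1.symm, hl2, hl2.symm] at m1 m2 m3
    linear_combination (-g i k) * m1 + g k k * m3 - g l k * m2
  have hdiag : ∀ i j, i ≠ j → g i i * g j j = 1 := by
    intro i j hij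
    have m1 := minor_of_fix h i j i j hij
    rw [hoff i j hij, zero_mul, sub_zero] at m1
    simpa using m1
  have heq : ∀ i, g i i = g 0 0 := by
    intro i
    obtain ⟨l, hl1, hl2⟩ : ∃ l : Fin 4, l ≠ i ∧ l ≠ 0 := by revert i; decide
    have a1 := hdiag l i hl1
    have a2 := hdiag l 0 hl2
    have h0 : g l l ≠ 0 := fun h0 => by rw [h0, zero_mul] at a1; exact zero_ne_one a1
    exact mul_left_cancel₀ h0 (a1.trans a2.symm)
  refine ⟨g 0 0, ?_, ?_⟩
  · have := hdiag 0 1 (by decide)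
    rwa [heq 1] at this
  · ext i j
    rw [Matrix.smul_apply, Matrix.one_apply, smul_eq_mul]
    split_ifs with hij
    · subst hij; rw [heq, mul_one]
    · rw [hoff i j hij, mul_zero]

theorem ad6_smul_one {c : F} (hc : c * c = 1) (v : V6) : ad6 (c • (1 : M4)) v = v := by
  rw [ad6_apply, Matrix.transpose_smul, Matrix.transpose_one, smul_mul_assoc, one_mul, smul_mul_assoc, mul_smul_comm, mul_one, smul_smul, hc,
    one_smul, ofM6_toM6]


theorem card_SL4 [Fintype F] {q : ℕ} (hF : Fintype.card F = q) :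
    Nat.card (Matrix.SpecialLinearGroup (Fin 4) F) = q ^ 6 * (q ^ 3 - 1) * ((q ^ 2 - 1) * (q ^ 4 - 1)) := by
  have hq : 1 < q := by rw [← hF]; exact Fintype.one_lt_card
  have h := GL.card_SL hF 4 (by norm_num)
  rw [Fin.prod_univ_four] at h
  have e1 : q ^ 4 - q ^ ((1 : Fin 4) : ℕ) = q * (q ^ 3 - 1) := by rw [Nat.mul_sub, mul_one]; simp; ring_nf
  have e2 : q ^ 4 - q ^ ((2 : Fin 4) : ℕ) = q ^ 2 * (q ^ 2 - 1) := by rw [Nat.mul_sub, mul_one]; simp; ring_nf
  have e3 : q ^ 4 - q ^ ((3 : Fin 4) : ℕ) = q ^ 3 * (q - 1) := by rw [Nat.mul_sub, mul_one]; simp; ring_nf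
  have e0 : q ^ 4 - q ^ ((0 : Fin 4) : ℕ) = q ^ 4 - 1 := by simp
  rw [e0, e1, e2, e3] at h
  apply Nat.eq_of_mul_eq_mul_left (show 0 < q - 1 by omega)
  rw [h]; ring

/-- the kernel of a scalar-type hom -/
theorem card_ker_pm {S O : Type*} [Group S] [Group O] (f : S →* O) {ι : Type*} [Fintype ι] [DecidableEq ι] [Nonempty ι]
    (mt : S → Matrix ι ι F) (hmt : Function.Injective mt) (hone : mt 1 = 1)
    (hker : ∀ g, g ∈ f.ker ↔ ∃ c : F, c * c = 1 ∧ mt g = c • (1 : Matrix ι ι F)) (hneg : ∃ g, mt g = (-1 : F) • (1 : Matrix ι ι F)) :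
    ((2 : F) = 0 → Nat.card f.ker = 1) ∧ ((2 : F) ≠ 0 → Nat.card f.ker = 2) := by
  have hcases : ∀ g, g ∈ f.ker → mt g = 1 ∨ mt g = (-1 : F) • (1 : Matrix ι ι F) := by
    intro g hg
    obtain ⟨c, hc, hg⟩ := (hker g).1 hg
    rcases mul_self_eq_one_iff.1 hc with rfl | rfl
    · left; rw [hg, one_smul]
    · right; exact hg
  constructor
  · intro h2
    rw [Subgroup.card_eq_one, eq_bot_iff]
    intro g hg
    rw [Subgroup.mem_bot]
    apply hmt
    rw [hone]
    rcases hcases g hg with h | h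
    · exact h
    · rw [h]
      have : (-1 : F) = 1 := by linear_combination -h2
      rw [this, one_smul]
  · intro h2
    obtain ⟨z, hz⟩ := hneg
    have hzk : z ∈ f.ker := (hker z).2 ⟨-1, by ring, hz⟩
    rw [Nat.card_eq_two_iff]
    refine ⟨1, ⟨z, hzk⟩, ?_, ?_⟩
    · intro h
      have h1 : (1 : S) = z := congrArg Subtype.val h
      rw [← h1, hone] at hz
      obtain ⟨i⟩ := ‹Nonempty ι›
      have h3 := congrFun (congrFun hz i) i
      rw [Matrix.smul_apply, Matrix.one_apply_eq, smul_eq_mul, mul_one] at h3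
      exact h2 (by linear_combination h3)
    · rw [Set.eq_univ_iff_forall]
      intro x
      rcases hcases x.1 x.2 with h | h
      · left
        apply Subtype.ext
        apply hmt
        rw [h]; exact hone.symm
      · right
        rw [Set.mem_singleton_iff]
        apply Subtype.ext
        apply hmt
        rw [h, hz]

theorem even_or_odd_cases [Fintype F] : ((2 : F) = 0 ∧ Fintype.card F % 2 = 0) ∨ ((2 : F) ≠ 0 ∧ Fintype.card F % 2 = 1) := by
  by_cases h : Odd (Fintype.card F)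
  · right
    exact ⟨two_ne_zero_of_odd_card rfl h, Nat.odd_iff.1 h⟩
  · left
    have h1 := H5.Quad.charP_two_of_even h
    exact ⟨by exact_mod_cast CharP.cast_eq_zero F 2, by rw [Nat.odd_iff] at h; omega⟩

/-- `PΩ_6^+(q) ≅ PSL_4(q)` -/
theorem iso6 [Fintype F] : Nonempty (Cfsg.POmega F (Cfsg.quadFormPlus 3 F) ≃* Matrix.ProjectiveSpecialLinearGroup (Fin 4) F) := by
  have hQ := nd_plusQ (F := F) 3
  obtain ⟨f, hf⟩ := exists_ad6 (F := F)
  have hker : ∀ g : Matrix.SpecialLinearGroup (Fin 4) F, g ∈ f.ker ↔ ∃ c : F, c * c = 1 ∧ (g : M4) = c • (1 : M4) := by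
    intro g
    rw [MonoidHom.mem_ker]
    constructor
    · intro h
      apply scalar_of_fix6
      intro v
      rw [← hf, h]; rfl
    · rintro ⟨c, hc, hg⟩
      apply Subtype.ext
      apply LinearEquiv.ext
      intro v
      rw [hf, hg, ad6_smul_one hc]; rfl
  have hperf := S0248.result (F := F) 4 (by norm_num)
  have hkc : f.ker ≤ Subgroup.center (Matrix.SpecialLinearGroup (Fin 4) F) := by
    intro g hg
    obtain ⟨c, -, hg⟩ := (hker g).1 hg
    rw [Subgroup.mem_center_iff]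
    intro k
    apply Subtype.ext
    show (k : M4) * (g : M4) = (g : M4) * (k : M4)
    rw [hg, smul_mul_assoc, mul_smul_comm, one_mul, mul_one]
  have hneg : ∃ g : Matrix.SpecialLinearGroup (Fin 4) F, (g : M4) = (-1 : F) • (1 : M4) :=
    ⟨⟨(-1 : F) • (1 : M4), by rw [Matrix.det_smul, Matrix.det_one]; simp; norm_num⟩, rfl⟩
  obtain ⟨hk1, hk2⟩ := card_ker_pm f (fun g : Matrix.SpecialLinearGroup (Fin 4) F => (g : M4)) Subtype.val_injective rfl hker hneg
  have hcard0 := S0287.result (F := F) rfl 3 (by norm_num)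
  rw [← coe_plusQ] at hcard0 ⊢
  have hfr : finrank F V6 = 6 := by rw [Module.finrank_fintype_fun_eq_card]; decide
  have hmul := (Cfsg.Omega F ⇑(plusQ F 3)).card_mul_index
  rw [hcard0] at hmul
  obtain ⟨q, hqq⟩ : ∃ q, q = Fintype.card F := ⟨_, rfl⟩
  rw [← hqq] at hmul
  have hS := card_SL4 (F := F) hqq.symm
  have hmul' : Nat.card (Cfsg.Omega F ⇑(plusQ F 3)) * (Cfsg.Omega F ⇑(plusQ F 3)).index =
      2 * Nat.card (Matrix.SpecialLinearGroup (Fin 4) F) := by
    rw [hmul, hS]
    simp [Finset.prod_range_succ]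
    ring
  refine main_iso f (range_le_of_perfect f hperf) ?_ (fun z hz => grun f hkc hperf z hz)
  rcases even_or_odd_cases (F := F) with ⟨h2, hq⟩ | ⟨h2, hq⟩
  · rw [Omega_index_two hQ h2 (by omega) (Or.inr (by omega))] at hmul'
    rw [hk1 h2]; omega
  · rw [Omega_index_odd hQ h2 (by omega)] at hmul'
    rw [hk2 h2]; omega


end Cfsg.Agent.H5.Exc
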