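import Cfsg.Agent.H16_MatOm
import Cfsg.Agent.H16_MaxStd
import Cfsg.Agent.H16_Quad5
import Cfsg.Agent.H5_FrmInst
import Cfsg.Agent.H5_FrmOrth

set_option autoImplicit false
set_option linter.unusedSectionVars false

namespace Cfsg.Agent.H5.I2

open Module

section Omega

open Cfsg.Agent.H16.Quad

variable {F : Type*} [Field F] [Finite F] {ι : Type} [Fintype ι] [DecidableEq ι]
  {Q : QuadraticForm F (ι → F)}

theorem rank_add_fixS (g : Cfsg.isometryGroup F ⇑Q) :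
    (((g : GL ι F) : Matrix ι ι F) - 1).rank + finrank F (fixS (toOG Q g).1) = finrank F (ι → F) := by
  have h := LinearMap.finrank_range_add_finrank_ker ((((g : GL ι F) : Matrix ι ι F) - 1).mulVecLin)
  rw [← h, Matrix.rank]
  congr 1
  have : fixS (toOG Q g).1 = LinearMap.ker ((((g : GL ι F) : Matrix ι ι F) - 1).mulVecLin) := by
    ext v
    rw [mem_fixS, LinearMap.mem_ker, Matrix.mulVecLin_apply, Matrix.sub_mulVec, Matrix.one_mulVec, sub_eq_zero,
      toOG_apply]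
  rw [this]

/-- in characteristic two `Ω` is the kernel of the Dickson invariant -/
theorem mem_Omega_iff_even [CharP F 2] (hQ : (QuadraticMap.polarBilin Q).Nondegenerate)
    (h : Nat.card F ≠ 2 ∨ finrank F (ι → F) ≠ 4) (g : Cfsg.isometryGroup F ⇑Q) :
    g ∈ Cfsg.Omega F ⇑Q ↔ Even (((g : GL ι F) : Matrix ι ι F) - 1).rank := by
  obtain ⟨δ, θ, h3, h4, -, h5, h6⟩ := iso_chars hQ h
  have h2 : (2 : F) = 0 := CharTwo.two_eq_zero
  have hδ := h6 g
  have hr := rank_add_fixS g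
  rw [h4]
  have hθ : θ g = 1 := by
    obtain ⟨vs, hvs, e1, e2⟩ := iso_exists_list hQ h g
    exact (h5 g vs hvs e1).2.2 (isSquare_of_two_eq_zero h2 _)
  rw [hδ, ← hr]
  have e : (-1 : ℤˣ) ^ ((((g : GL ι F) : Matrix ι ι F) - 1).rank + finrank F (fixS (toOG Q g).1)
      + finrank F (fixS (toOG Q g).1)) = (-1) ^ (((g : GL ι F) : Matrix ι ι F) - 1).rank := by
    rw [add_assoc, pow_add, ← two_mul, pow_mul]
    simp
  rw [e]
  constructor
  · rintro ⟨h7, -⟩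
    rcases Nat.even_or_odd (((g : GL ι F) : Matrix ι ι F) - 1).rank with h8 | h8
    · exact h8
    · rw [h8.neg_one_pow] at h7
      exact absurd h7 (by decide)
  · intro h7
    exact ⟨h7.neg_one_pow, hθ⟩

end Omega

section Abs

open Cfsg.Agent.H5 Cfsg.Agent.H5.Frm

variable {F : Type*} [Field F] {σ : F →+* F} {ε : F} {t : F →+ F} {V : Type*} [AddCommGroup V] [Module F V]

/-- `τ - 1` -/
def nn (τ : V ≃ₗ[F] V) : V →ₗ[F] V := τ.toLinearMap - LinearMap.id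

theorem nn_apply (τ : V ≃ₗ[F] V) (v : V) : nn τ v = τ v - v := rfl

theorem nn_nn [CharP F 2] {τ : V ≃ₗ[F] V} (h : ∀ v, τ (τ v) = v) (v : V) : nn τ (nn τ v) = 0 := by
  rw [nn_apply, nn_apply, map_sub, h]
  have h2 : (2 : F) = 0 := CharTwo.two_eq_zero
  have : v - τ v - (τ v - v) = (2 : F) • (v - τ v) := by rw [two_smul]; abel
  rw [this, h2, zero_smul]

theorem B_nn {A : Frm F σ ε t V} {τ : V ≃ₗ[F] V} (hτ : τ ∈ A.isom) (h : ∀ v, τ (τ v) = v) (u v : V) :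
    A.B u (nn τ v) = A.B (nn τ u) v := by
  rw [nn_apply, nn_apply, map_sub, map_sub, LinearMap.sub_apply]
  congr 1
  rw [← hτ.1 u (τ v), h]

theorem B_nn_nn [CharP F 2] {A : Frm F σ ε t V} {τ : V ≃ₗ[F] V} (hτ : τ ∈ A.isom) (h : ∀ v, τ (τ v) = v)
    (u v : V) : A.B (nn τ u) (nn τ v) = 0 := by
  rw [← B_nn hτ h, nn_nn h, map_zero]

theorem exists_sec (τ : V ≃ₗ[F] V) : ∃ s : LinearMap.range (nn τ) →ₗ[F] V, ∀ w, nn τ (s w) = w := by
  obtain ⟨s, hs⟩ := (nn τ).rangeRestrict.exists_rightInverse_of_surjective (by rw [LinearMap.range_rangeRestrict])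
  refine ⟨s, fun w => ?_⟩
  have := LinearMap.congr_fun hs w
  exact congrArg Subtype.val this

/-- a section of `τ - 1` -/
noncomputable def sec (τ : V ≃ₗ[F] V) : LinearMap.range (nn τ) →ₗ[F] V := (exists_sec τ).choose

theorem nn_sec (τ : V ≃ₗ[F] V) (w : LinearMap.range (nn τ)) : nn τ (sec τ w) = w := (exists_sec τ).choose_spec w

/-- the form on the image of `τ - 1` -/
noncomputable def bf (A : Frm F σ ε t V) (τ : V ≃ₗ[F] V) :
    LinearMap.range (nn τ) →ₛₗ[σ] LinearMap.range (nn τ) →ₗ[F] F :=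
  (A.B.comp (sec τ)).compl₂ (Submodule.subtype _)

theorem bf_eq {A : Frm F σ ε t V} {τ : V ≃ₗ[F] V} (hτ : τ ∈ A.isom) (h : ∀ v, τ (τ v) = v) (u : V)
    (w w' : LinearMap.range (nn τ)) (hu : nn τ u = w) : bf A τ w w' = A.B u w' := by
  change A.B (sec τ w) (w' : V) = A.B u w'
  obtain ⟨v, hv⟩ := w'.2
  rw [← hv, B_nn hτ h, B_nn hτ h, nn_sec, hu]

theorem bf_eq' {A : Frm F σ ε t V} {τ : V ≃ₗ[F] V} (hτ : τ ∈ A.isom) (h : ∀ v, τ (τ v) = v) (u : V)
    (w w' : LinearMap.range (nn τ)) (hu : nn τ u = w') : bf A τ w w' = A.B (w : V) u := by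
  obtain ⟨v, hv⟩ := w.2
  rw [bf_eq hτ h v w w' hv, ← hu, B_nn hτ h, hv]

theorem bf_symm {A : Frm F σ ε t V} {τ : V ≃ₗ[F] V} (hτ : τ ∈ A.isom) (h : ∀ v, τ (τ v) = v)
    (w w' : LinearMap.range (nn τ)) : bf A τ w' w = ε * σ (bf A τ w w') := by
  obtain ⟨v, hv⟩ := w.2
  rw [bf_eq hτ h v w w' hv, bf_eq' hτ h v w' w hv, A.symm v]

theorem bf_nondeg {A : Frm F σ ε t V} (hA : A.Nondeg) {τ : V ≃ₗ[F] V} (hτ : τ ∈ A.isom)
    (h : ∀ v, τ (τ v) = v) (w : LinearMap.range (nn τ)) (hw : ∀ w', bf A τ w w' = 0) : w = 0 := by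
  apply Subtype.ext
  apply hA
  intro y
  rw [← bf_eq' hτ h y w ⟨nn τ y, y, rfl⟩ rfl]
  exact hw _

/-- an isometry of the forms on the images gives conjugacy -/
theorem conj_of_equiv [CharP F 2] [FiniteDimensional F V] {A : Frm F σ ε t V} (hA : A.Nondeg) {τ ς : V ≃ₗ[F] V}
    (hτ : τ ∈ A.isom) (hτ2 : ∀ v, τ (τ v) = v) (hς : ς ∈ A.isom) (hς2 : ∀ v, ς (ς v) = v)
    (φ : LinearMap.range (nn τ) ≃ₗ[F] LinearMap.range (nn ς))
    (hφ : ∀ w w', bf A ς (φ w) (φ w') = bf A τ w w') (hQ : ∀ w, A.Q (φ w : V) = A.Q (w : V)) :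
    ∃ g ∈ A.isom, (∀ w : LinearMap.range (nn τ), g (w : V) = (φ w : V)) ∧ ∀ v, g (τ v) = ς (g v) := by
  obtain ⟨g, hg, hgφ⟩ := witt_equiv hA _ _ φ (fun x x' => by
    obtain ⟨u, hu⟩ := x.2
    obtain ⟨u', hu'⟩ := x'.2
    obtain ⟨v, hv⟩ := (φ x).2
    obtain ⟨v', hv'⟩ := (φ x').2
    rw [← hu, ← hu', ← hv, ← hv', B_nn_nn hτ hτ2, B_nn_nn hς hς2]) hQ
  refine ⟨g, hg, hgφ, fun v => ?_⟩
  -- it suffices that `g (nn τ v) = nn ς (g v)`
  have key : g (nn τ v) = nn ς (g v) := by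
    obtain ⟨w, hw⟩ : ∃ w : LinearMap.range (nn τ), nn τ v = w := ⟨⟨nn τ v, v, rfl⟩, rfl⟩
    rw [hw, hgφ]
    suffices φ w - ⟨nn ς (g v), g v, rfl⟩ = 0 from congrArg Subtype.val (sub_eq_zero.1 this)
    apply bf_nondeg hA hς hς2
    intro y
    obtain ⟨x, rfl⟩ := φ.surjective y
    rw [map_sub, LinearMap.sub_apply, hφ, bf_eq hτ hτ2 v w x hw, bf_eq hς hς2 (g v) _ _ rfl, ← hgφ, hg.1, sub_self]
  rw [nn_apply, nn_apply, map_sub, sub_left_inj] at key
  exact key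

/-- conversely -/
theorem bf_conj {A : Frm F σ ε t V} {τ ς : V ≃ₗ[F] V}
    (hτ : τ ∈ A.isom) (hτ2 : ∀ v, τ (τ v) = v) (hς : ς ∈ A.isom) (hς2 : ∀ v, ς (ς v) = v)
    {g : V ≃ₗ[F] V} (hg : ∀ x y, A.B (g x) (g y) = A.B x y) (hgτ : ∀ v, g (τ v) = ς (g v)) :
    ∃ φ : LinearMap.range (nn τ) ≃ₗ[F] LinearMap.range (nn ς), (∀ w : LinearMap.range (nn τ), g (w : V) = (φ w : V)) ∧
      ∀ w w', bf A ς (φ w) (φ w') = bf A τ w w' := by
  have hr : (LinearMap.range (nn τ)).map (g : V →ₗ[F] V) = LinearMap.range (nn ς) := by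
    ext x
    constructor
    · rintro ⟨_, ⟨u, rfl⟩, rfl⟩
      exact ⟨g u, by
        change nn ς (g u) = g (nn τ u)
        rw [nn_apply, nn_apply, map_sub, hgτ]⟩
    · rintro ⟨u, rfl⟩
      refine ⟨nn τ (g.symm u), ⟨_, rfl⟩, ?_⟩
      change g (nn τ (g.symm u)) = nn ς u
      rw [nn_apply, nn_apply, map_sub, hgτ, LinearEquiv.apply_symm_apply]
  refine ⟨(g.submoduleMap (LinearMap.range (nn τ))).trans (LinearEquiv.ofEq _ _ hr), fun w => rfl, fun w w' => ?_⟩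
  obtain ⟨u, hu⟩ := w.2
  rw [bf_eq hτ hτ2 u w w' hu]
  rw [bf_eq hς hς2 (g u)]
  · exact hg _ _
  · change nn ς (g u) = g w
    rw [← hu, nn_apply, nn_apply, map_sub, hgτ]

end Abs

section QuadConj

open Cfsg.Agent.H5 Cfsg.Agent.H5.Frm

variable {F : Type*} [Field F] [CharP F 2] {V : Type*} [AddCommGroup V] [Module F V]

theorem quad_Q_bf {Q : QuadraticForm F V} {τ : V ≃ₗ[F] V} (hτ : τ ∈ (ofQuad Q).isom) (h : ∀ v, τ (τ v) = v)
    (w : LinearMap.range (nn τ)) : Q (w : V) = bf (ofQuad Q) τ w w := by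
  obtain ⟨u, hu⟩ := w.2
  have h2 : (2 : F) = 0 := CharTwo.two_eq_zero
  rw [bf_eq hτ h u w w hu, ← hu, nn_apply]
  change Q (τ u - u) = QuadraticMap.polar Q u (τ u - u)
  have e1 : Q (τ u) = Q u := hτ.2 u
  have e2 := Cfsg.Agent.H16.Quad.map_sub Q (τ u) u
  have e3 : QuadraticMap.polar Q u (τ u - u) = QuadraticMap.polar Q u (τ u) - QuadraticMap.polar Q u u :=
    QuadraticMap.polar_sub_right _ _ _ _
  have e4 : QuadraticMap.polar Q u u = 2 * Q u := by rw [QuadraticMap.polar_self, two_nsmul, two_mul]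
  have e5 : QuadraticMap.polar Q u (τ u) = QuadraticMap.polar Q (τ u) u := QuadraticMap.polar_comm _ _ _
  rw [e3, e4, e5, e2, e1]
  linear_combination (2 * Q u - QuadraticMap.polar Q (τ u) u) * h2

theorem quad_conj [FiniteDimensional F V] {Q : QuadraticForm F V} (hQ : (ofQuad Q).Nondeg) {τ ς : V ≃ₗ[F] V}
    (hτ : τ ∈ (ofQuad Q).isom) (hτ2 : ∀ v, τ (τ v) = v) (hς : ς ∈ (ofQuad Q).isom) (hς2 : ∀ v, ς (ς v) = v)
    {g : V ≃ₗ[F] V} (hg : ∀ x y, QuadraticMap.polar Q (g x) (g y) = QuadraticMap.polar Q x y)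
    (hgτ : ∀ v, g (τ v) = ς (g v)) : ∃ g' ∈ (ofQuad Q).isom, ∀ v, g' (τ v) = ς (g' v) := by
  obtain ⟨φ, h1, h2⟩ := bf_conj hτ hτ2 hς hς2 hg hgτ
  obtain ⟨g', h3, -, h4⟩ := conj_of_equiv hQ hτ hτ2 hς hς2 φ h2 (fun w => by
    change Q _ = Q _
    rw [quad_Q_bf hτ hτ2, quad_Q_bf hς hς2, h2])
  exact ⟨g', h3, h4⟩

end QuadConj

section QuadMat

open Cfsg.Agent.H16.Quad Cfsg.Agent.H5 Cfsg.Agent.H5.Frm

variable {F : Type*} [Field F] [CharP F 2] {ι : Type} [Fintype ι] [DecidableEq ι]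
  {Q : QuadraticForm F (ι → F)}

theorem toOG_isom (g : Cfsg.isometryGroup F ⇑Q) : (toOG Q g).1 ∈ (ofQuad Q).isom := by
  refine ⟨fun x y => ?_, fun x => (toOG Q g).2 x⟩
  change QuadraticMap.polar Q _ _ = QuadraticMap.polar Q _ _
  rw [QuadraticMap.polar, QuadraticMap.polar, ← _root_.map_add, (toOG Q g).2 _, (toOG Q g).2 _, (toOG Q g).2 _]

theorem toOG_sq {g : Cfsg.isometryGroup F ⇑Q} (hg : g ^ 2 = 1) (v : ι → F) : (toOG Q g).1 ((toOG Q g).1 v) = v := by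
  have h : toOG Q g * toOG Q g = 1 := by rw [← _root_.map_mul, ← pow_two, hg, _root_.map_one]
  have h1 := congrArg (fun x : OG Q => x.1 v) h
  exact h1

theorem iso_conj_iff (hQ : (QuadraticMap.polarBilin Q).Nondegenerate) (t s : Cfsg.isometryGroup F ⇑Q)
    (ht : t ^ 2 = 1) (hs : s ^ 2 = 1) : IsConj t s ↔
      ∃ g ∈ Cfsg.preserving (Units.coeHom (Matrix ι ι F)) (fun u v => Q (u + v) - Q u - Q v),
        g * (t : GL ι F) * g⁻¹ = (s : GL ι F) := by
  constructor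
  · intro h
    obtain ⟨c, hc⟩ := isConj_iff.1 h
    refine ⟨c.1, ?_, congrArg Subtype.val hc⟩
    intro u v
    have := (toOG_isom c).1 u v
    exact this
  · rintro ⟨g, hg, hgt⟩
    obtain ⟨g', h1, h2⟩ := quad_conj (nondeg_ofQuad hQ) (toOG_isom t) (toOG_sq ht) (toOG_isom s) (toOG_sq hs)
      (g := glE F ι g) (fun x y => hg x y) (fun v => by
        rw [toOG_apply, toOG_apply, glE_apply, glE_apply, Matrix.mulVec_mulVec, Matrix.mulVec_mulVec,
          ← Matrix.GeneralLinearGroup.coe_mul, ← Matrix.GeneralLinearGroup.coe_mul, ← hgt, inv_mul_cancel_right])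
    rw [isConj_iff]
    refine ⟨(toOG Q).symm ⟨g', h1.2⟩, ?_⟩
    apply (toOG Q).injective
    rw [_root_.map_mul, _root_.map_mul, _root_.map_inv, MulEquiv.apply_symm_apply, mul_inv_eq_iff_eq_mul]
    apply Subtype.ext
    apply LinearEquiv.ext
    intro v
    exact h2 v

end QuadMat

section Split

open Cfsg.Agent.H16.Quad

variable {F : Type*} [Field F] [Finite F] [CharP F 2] {ι : Type} [Fintype ι] [DecidableEq ι]
  {Q : QuadraticForm F (ι → F)}

/-- if every vector fixed by an involution is singular, the image of `t - 1` is a maximal totally singular subspace -/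
theorem isMax_imS (hQ : (QuadraticMap.polarBilin Q).Nondegenerate) {τ : (ι → F) ≃ₗ[F] (ι → F)} (hτ : τ ∈ OG Q)
    (h2 : ∀ v, τ (τ v) = v) (hs : ∀ v, τ v = v → Q v = 0) : IsMax Q (imS τ) := by
  have hle : imS τ ≤ fixS τ := by
    rintro _ ⟨v, rfl⟩
    rw [mem_fixS]
    have := nn_nn h2 v
    rw [nn_apply, sub_eq_zero] at this
    exact this
  refine ⟨fun u hu => hs u (mem_fixS.1 (hle hu)), ?_⟩
  have h1 := ts_finrank_le hQ (U := fixS τ) (fun u hu => hs u (mem_fixS.1 hu))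
  have h3 := Submodule.finrank_mono hle
  have h4 := finrank_add_finrank_perp hQ (imS τ)
  rw [perp_imS hQ hτ] at h4
  omega

/-- an isometry outside `Ω` commuting with `t`. -/
theorem exists_comm_notMem (hQ : (QuadraticMap.polarBilin Q).Nondegenerate)
    (h : Nat.card F ≠ 2 ∨ finrank F (ι → F) ≠ 4) (t : Cfsg.isometryGroup F ⇑Q) {w : ι → F} (hw : Q w ≠ 0)
    (htw : (toOG Q t).1 w = w) : ∃ r : Cfsg.isometryGroup F ⇑Q, r ∉ Cfsg.Omega F ⇑Q ∧ r * t = t * r := by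
  obtain ⟨r, hr⟩ := iso_exists_refl (Q := Q) w
  refine ⟨r, ?_, ?_⟩
  · rw [mem_Omega_rpr_iff hQ h (vs := [w]) (by simpa using hw) (by rw [hr]; simp [rpr])]
    rintro ⟨h1, -⟩
    simp at h1
  · apply (toOG Q).injective
    rw [_root_.map_mul, _root_.map_mul, hr]
    apply Subtype.ext
    have h1 := conj_refl (toOG Q t).2 w
    rw [htw, mul_inv_eq_iff_eq_mul] at h1
    exact h1.symm

theorem conj_Omega_of_comm (hQ : (QuadraticMap.polarBilin Q).Nondegenerate)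
    (h : Nat.card F ≠ 2 ∨ finrank F (ι → F) ≠ 4) (hn : 1 ≤ finrank F (ι → F))
    {t s r : Cfsg.isometryGroup F ⇑Q} (hr : r ∉ Cfsg.Omega F ⇑Q) (hrt : r * t = t * r) (hc : IsConj t s) :
    ∃ g ∈ Cfsg.Omega F ⇑Q, g * t * g⁻¹ = s := by
  obtain ⟨c, hc⟩ := isConj_iff.1 hc
  have h2 : (2 : F) = 0 := CharTwo.two_eq_zero
  by_cases hcO : c ∈ Cfsg.Omega F ⇑Q
  · exact ⟨c, hcO, hc⟩
  · refine ⟨c * r, ?_, ?_⟩
    · rw [Subgroup.mul_mem_iff_of_index_two (Omega_index_two hQ h2 hn h)]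
      exact ⟨fun h => absurd h hcO, fun h => absurd h hr⟩
    · rw [← hc, mul_inv_rev]
      calc c * r * t * (r⁻¹ * c⁻¹) = c * (r * t * r⁻¹) * c⁻¹ := by group
        _ = c * t * c⁻¹ := by rw [hrt, mul_inv_cancel_right]

/-- no splitting if some fixed vector is non-singular -/
theorem conj_Omega_or (hQ : (QuadraticMap.polarBilin Q).Nondegenerate)
    (h : Nat.card F ≠ 2 ∨ finrank F (ι → F) ≠ 4) (hn : 1 ≤ finrank F (ι → F))
    {t s : Cfsg.isometryGroup F ⇑Q} (ht : t ^ 2 = 1) (hc : IsConj t s) :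
    (∃ g ∈ Cfsg.Omega F ⇑Q, g * t * g⁻¹ = s) ∨ IsMax Q (imS (toOG Q t).1) := by
  by_cases hs : ∀ v, (toOG Q t).1 v = v → Q v = 0
  · exact Or.inr (isMax_imS hQ (toOG Q t).2 (toOG_sq ht) hs)
  · push Not at hs
    obtain ⟨w, hw1, hw2⟩ := hs
    obtain ⟨r, hr, hrt⟩ := exists_comm_notMem hQ h t hw2 hw1
    exact Or.inl (conj_Omega_of_comm hQ h hn hr hrt hc)

/-- membership in `Ω` by the action on a maximal totally singular subspace -/
theorem mem_Omega_iff_max (hQ : (QuadraticMap.polarBilin Q).Nondegenerate)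
    (h : Nat.card F ≠ 2 ∨ finrank F (ι → F) ≠ 4) {U : Submodule F (ι → F)} (hU : IsMax Q U)
    (hev : Even (finrank F U)) (c : Cfsg.isometryGroup F ⇑Q) :
    c ∈ Cfsg.Omega F ⇑Q ↔ Even (finrank F (U ⊓ U.map (toOG Q c).1.toLinearMap : Submodule F (ι → F))) := by
  obtain ⟨vs, hvs, e1, -⟩ := iso_exists_list hQ h c
  have h2 : (2 : F) = 0 := CharTwo.two_eq_zero
  rw [mem_Omega_rpr_iff hQ h hvs e1, e1, coe_rpr]
  have h3 := parity_rprod hQ hU hU vs hvs
  rw [inf_idem] at h3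
  have h4 := isSquare_of_two_eq_zero h2 (vs.map Q).prod
  constructor
  · rintro ⟨h5, -⟩
    rw [Nat.even_add, iff_true_right h5, Nat.even_add, iff_true_left hev] at h3
    exact h3
  · intro h5
    refine ⟨?_, h4⟩
    rw [Nat.even_add, iff_true_left (hev.add h5)] at h3
    exact h3

theorem imS_conj {c t s : Cfsg.isometryGroup F ⇑Q} (hc : c * t * c⁻¹ = s) :
    imS (toOG Q s).1 = (imS (toOG Q t).1).map (toOG Q c).1.toLinearMap := by
  have hg : ∀ v, (toOG Q c).1 ((toOG Q t).1 v) = (toOG Q s).1 ((toOG Q c).1 v) := by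
    intro v
    have h1 : toOG Q c * toOG Q t = toOG Q s * toOG Q c := by
      rw [← _root_.map_mul, ← _root_.map_mul, ← hc, inv_mul_cancel_right]
    exact congrArg (fun x : OG Q => x.1 v) h1
  ext x
  constructor
  · rintro ⟨u, rfl⟩
    refine ⟨(toOG Q t).1 ((toOG Q c).1.symm u) - (toOG Q c).1.symm u, ⟨_, rfl⟩, ?_⟩
    change (toOG Q c).1 _ = (toOG Q s).1 u - u
    rw [_root_.map_sub, hg, LinearEquiv.apply_symm_apply]
  · rintro ⟨_, ⟨u, rfl⟩, rfl⟩
    refine ⟨(toOG Q c).1 u, ?_⟩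
    change (toOG Q s).1 _ - _ = (toOG Q c).1 ((toOG Q t).1 u - u)
    rw [_root_.map_sub, hg]
    rfl

theorem range_eq_imS (t : Cfsg.isometryGroup F ⇑Q) :
    LinearMap.range (Matrix.toLin' (((t : GL ι F) : Matrix ι ι F) - 1)) = imS (toOG Q t).1 := by
  ext x
  rw [mem_imS, LinearMap.mem_range]
  refine exists_congr fun y => ?_
  rw [Matrix.toLin'_apply, Matrix.sub_mulVec, Matrix.one_mulVec, toOG_apply]

theorem rank_eq_imS (t : Cfsg.isometryGroup F ⇑Q) :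
    (((t : GL ι F) : Matrix ι ι F) - 1).rank = finrank F (imS (toOG Q t).1) := by
  rw [← range_eq_imS, Matrix.rank_eq_finrank_range_toLin _ (Pi.basisFun F ι) (Pi.basisFun F ι),
    Matrix.toLin_eq_toLin']

end Split

section Rank

open Matrix

theorem rank_conj_le {F : Type*} [Field F] {ι : Type*} [Fintype ι] [DecidableEq ι] {A B P P' : Matrix ι ι F}
    (hP : P * P' = 1) (h : P * A * P' = B) : (B - 1).rank ≤ (A - 1).rank := by
  have : B - 1 = P * (A - 1) * P' := by rw [mul_sub, sub_mul, h, mul_one, hP]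
  rw [this]
  exact (Matrix.rank_mul_le_left _ _).trans (Matrix.rank_mul_le_right _ _)

theorem rank_conj {F : Type*} [Field F] {ι : Type*} [Fintype ι] [DecidableEq ι] {A B P P' : Matrix ι ι F}
    (hP : P * P' = 1) (h : P * A * P' = B) : (B - 1).rank = (A - 1).rank := by
  have hP' : P' * P = 1 := mul_eq_one_comm.1 hP
  apply le_antisymm (rank_conj_le hP h)
  apply rank_conj_le hP'
  rw [← h]
  calc P' * (P * A * P') * P = (P' * P) * A * (P' * P) := by noncomm_ring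
    _ = A := by rw [hP', one_mul, mul_one]

/-- linear version -/
theorem finrank_range_nn {F : Type*} [Field F] {ι : Type*} [Fintype ι] [DecidableEq ι] {A : Matrix ι ι F}
    {τ : (ι → F) ≃ₗ[F] (ι → F)} (h : ∀ v, τ v = A *ᵥ v) :
    finrank F (LinearMap.range (nn τ)) = (A - 1).rank := by
  rw [Matrix.rank]
  have : nn τ = (A - 1).mulVecLin := by
    apply LinearMap.ext
    intro v
    rw [nn_apply, h, Matrix.mulVecLin_apply, Matrix.sub_mulVec, Matrix.one_mulVec]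
  rw [this]

end Rank

end Cfsg.Agent.H5.I2
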