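import Cfsg.Agent.H5_Inv2
import Cfsg.Agent.H5_Unit
import Cfsg.Agent.H5_HermBasis

set_option autoImplicit false
set_option linter.unusedSectionVars false

/-! Involutions of unitary groups in characteristic two. -/

namespace Cfsg.Agent.H5.I2

open Module Matrix Cfsg.Agent.H5 Cfsg.Agent.H5.Frm Cfsg.Agent.H5.Herm Cfsg.Agent.H5.Conc

variable {F : Type*} [Field F] [Fintype F] {q : ℕ}

theorem herm_isometric (hF : Fintype.card F = q ^ 2) {V V' : Type*} [AddCommGroup V] [Module F V]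
    [FiniteDimensional F V] [AddCommGroup V'] [Module F V'] [FiniteDimensional F V']
    (b : V →ₛₗ[Fld.frob hF] V →ₗ[F] F) (hs : b.IsSymm) (hn : ∀ x, (∀ y, b x y = 0) → x = 0)
    (b' : V' →ₛₗ[Fld.frob hF] V' →ₗ[F] F) (hs' : b'.IsSymm) (hn' : ∀ x, (∀ y, b' x y = 0) → x = 0)
    (hd : finrank F V = finrank F V') : ∃ φ : V ≃ₗ[F] V', ∀ x y, b' (φ x) (φ y) = b x y := by
  obtain ⟨e, he⟩ := orthonormal hF _ (ofHerm (Fld.frob_ne_id hF) (Fld.frob_frob hF) b hs) (fun _ => rfl)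
    (fun x hx => hn x hx) rfl
  obtain ⟨e', he'⟩ := orthonormal hF _ (ofHerm (Fld.frob_ne_id hF) (Fld.frob_frob hF) b' hs') (fun _ => rfl)
    (fun x hx => hn' x hx) hd.symm
  refine ⟨e.equiv e' (Equiv.refl _), fun x y => ?_⟩
  have : ((b'.comp (e.equiv e' (Equiv.refl _)).toLinearMap).compl₂ (e.equiv e' (Equiv.refl _)).toLinearMap) = b := by
    apply e.ext
    intro i
    apply e.ext
    intro j
    change b' (e.equiv e' (Equiv.refl _) (e i)) (e.equiv e' (Equiv.refl _) (e j)) = _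
    rw [Basis.equiv_apply, Basis.equiv_apply, Equiv.refl_apply, Equiv.refl_apply]
    exact (he' i j).trans (he i j).symm
  exact LinearMap.congr_fun (LinearMap.congr_fun this x) y

theorem gu_conj [CharP F 2] (hF : Fintype.card F = q ^ 2) {n : ℕ} {a b : Cfsg.GU n F q} (ha : a ^ 2 = 1) (hb : b ^ 2 = 1)
    (hr : (((a : GL (Fin n) F) : Matrix (Fin n) (Fin n) F) - 1).rank =
      (((b : GL (Fin n) F) : Matrix (Fin n) (Fin n) F) - 1).rank) : ∃ g : Cfsg.GU n F q, g * a * g⁻¹ = b := by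
  have hsqr : ∀ {c : Cfsg.GU n F q}, c ^ 2 = 1 → ∀ v, (guEquiv hF n c).1 ((guEquiv hF n c).1 v) = v := by
    intro c hc v
    have h1 : guEquiv hF n c * guEquiv hF n c = 1 := by rw [← _root_.map_mul, ← pow_two, hc, _root_.map_one]
    exact congrArg (fun x : (hermFrm hF n).isom => x.1 v) h1
  have hnd := hermFrm_nondeg hF n
  have hsy : ∀ {c : Cfsg.GU n F q}, c ^ 2 = 1 → (bf (hermFrm hF n) (guEquiv hF n c).1).IsSymm := by
    intro c hc
    constructor
    intro x y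
    rw [bf_symm (guEquiv hF n c).2 (hsqr hc) x y, one_mul]
  have hn : ∀ {c : Cfsg.GU n F q} (hc : c ^ 2 = 1) x,
      (∀ y, bf (hermFrm hF n) (guEquiv hF n c).1 x y = 0) → x = 0 := fun {c} hc x hx =>
    bf_nondeg hnd (guEquiv hF n c).2 (hsqr hc) x hx
  have hd : finrank F (LinearMap.range (nn (guEquiv hF n a).1)) = finrank F (LinearMap.range (nn (guEquiv hF n b).1)) := by
    rw [finrank_range_nn (A := ((a : GL (Fin n) F) : Matrix (Fin n) (Fin n) F)) (fun v => guEquiv_apply hF n a v),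
      finrank_range_nn (A := ((b : GL (Fin n) F) : Matrix (Fin n) (Fin n) F)) (fun v => guEquiv_apply hF n b v), hr]
  obtain ⟨φ, hφ⟩ := herm_isometric hF _ (hsy ha) (hn ha) _ (hsy hb) (hn hb) hd
  obtain ⟨g, hg, -, hg2⟩ := conj_of_equiv hnd (guEquiv hF n a).2 (hsqr ha) (guEquiv hF n b).2 (hsqr hb) φ hφ
    (fun w => by
      obtain ⟨u, hu⟩ := w.2
      obtain ⟨v, hv⟩ := (φ w).2
      change (hermFrm hF n).B _ _ = (hermFrm hF n).B _ _
      rw [← hu, ← hv, B_nn_nn (guEquiv hF n a).2 (hsqr ha), B_nn_nn (guEquiv hF n b).2 (hsqr hb)])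
  refine ⟨(guEquiv hF n).symm ⟨g, hg⟩, ?_⟩
  apply (guEquiv hF n).injective
  rw [_root_.map_mul, _root_.map_mul, _root_.map_inv, MulEquiv.apply_symm_apply, mul_inv_eq_iff_eq_mul]
  apply Subtype.ext
  apply LinearEquiv.ext
  intro v
  exact hg2 v

end Cfsg.Agent.H5.I2
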