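import Cfsg.Agent.H16_POm7
import Cfsg.Prelude.Def_Solvable

set_option autoImplicit false

/-! Local balance: the abstract argument. -/

namespace Cfsg.Agent.H5.LB

section Abs

variable {G : Type*} [Group G] {p : ℕ}

theorem core_eq_bot_iff : Cfsg.pPrimeCore p G = ⊥ ↔ ∀ V : Subgroup G, V.Normal → (Nat.card V).Coprime p → V = ⊥ := by
  rw [Cfsg.pPrimeCore, sSup_eq_bot]
  constructor
  · intro h V h1 h2; exact h V ⟨h1, h2⟩
  · rintro h V ⟨h1, h2⟩; exact h V h1 h2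

theorem core_of_equiv {H : Type*} [Group H] (e : G ≃* H) (h : Cfsg.pPrimeCore p G = ⊥) : Cfsg.pPrimeCore p H = ⊥ := by
  rw [core_eq_bot_iff] at h ⊢
  intro V h1 h2
  have h3 := h (V.comap e.toMonoidHom) (h1.comap _) (by
    have h4 : Nat.card (V.comap e.toMonoidHom) = Nat.card V := by
      have h5 : (V.comap e.toMonoidHom).map e.toMonoidHom = V := Subgroup.map_comap_eq_self_of_surjective e.surjective V
      have h6 := Nat.card_congr ((V.comap e.toMonoidHom).equivMapOfInjective e.toMonoidHom e.injective).toEquiv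
      rw [h6, h5]
    rwa [h4])
  rw [eq_bot_iff]
  intro v hv
  obtain ⟨w, rfl⟩ := e.surjective v
  have h4 : w ∈ V.comap e.toMonoidHom := hv
  rw [h3, Subgroup.mem_bot] at h4
  rw [h4, map_one]
  exact one_mem _

theorem core_conj {A : Subgroup G} {x α : G}
    (h : Cfsg.pPrimeCore p ↥(A.map (MulAut.conj α).toMonoidHom ⊓ Subgroup.centralizer {α * x * α⁻¹}) = ⊥) :
    Cfsg.pPrimeCore p ↥(A ⊓ Subgroup.centralizer {x}) = ⊥ := by
  have hinj : Function.Injective (MulAut.conj α).toMonoidHom := (MulAut.conj α).injective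
  have h2 : (A ⊓ Subgroup.centralizer ({x} : Set G)).map (MulAut.conj α).toMonoidHom =
      A.map (MulAut.conj α).toMonoidHom ⊓ Subgroup.centralizer {α * x * α⁻¹} := by
    ext y
    constructor
    · rintro ⟨z, ⟨hz1, hz2⟩, rfl⟩
      refine ⟨⟨z, hz1, rfl⟩, ?_⟩
      replace hz2 : z ∈ Subgroup.centralizer ({x} : Set G) := hz2
      rw [Subgroup.mem_centralizer_singleton_iff] at hz2
      refine Subgroup.mem_centralizer_singleton_iff.mpr ?_
      change α * z * α⁻¹ * (α * x * α⁻¹) = α * x * α⁻¹ * (α * z * α⁻¹)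
      calc _ = α * (z * x) * α⁻¹ := by group
        _ = α * (x * z) * α⁻¹ := by rw [hz2]
        _ = _ := by group
    · rintro ⟨⟨z, hz1, rfl⟩, hz2⟩
      refine ⟨z, ⟨hz1, ?_⟩, rfl⟩
      replace hz2 : α * z * α⁻¹ * (α * x * α⁻¹) = α * x * α⁻¹ * (α * z * α⁻¹) := Subgroup.mem_centralizer_singleton_iff.mp hz2
      refine Subgroup.mem_centralizer_singleton_iff.mpr ?_
      have h3 : α * (z * x) * α⁻¹ = α * (x * z) * α⁻¹ := by
        calc _ = α * z * α⁻¹ * (α * x * α⁻¹) := by group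
          _ = _ := by rw [hz2]; group
      exact mul_left_cancel (mul_right_cancel h3)
  rw [← h2] at h
  exact core_of_equiv ((A ⊓ Subgroup.centralizer ({x} : Set G)).equivMapOfInjective _ hinj).symm h

/-- the main criterion. -/
theorem core_eq_bot {A I K₀ : Subgroup G} {X : G} (hI : I.Normal) (hX : orderOf X = p)
    (hKI : K₀ ≤ I) (hKX : K₀ ≤ Subgroup.centralizer {X}) (hKA : K₀ ≤ A)
    (hn : ∀ z ∈ I, z ∈ Subgroup.centralizer {X} → ∀ k ∈ K₀, z * k * z⁻¹ ∈ K₀)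
    (hp : p ≠ 1) (hs : ∀ N : Subgroup G, N ≤ K₀ → (∀ n ∈ N, ∀ k ∈ K₀, k * n * k⁻¹ ∈ N) → N ≠ ⊥ → p ∣ Nat.card N)
    (hc : ∀ y ∈ A, y ∈ Subgroup.centralizer {X} → (∀ k ∈ K₀, y * k = k * y) → y ∈ Subgroup.zpowers X) :
    Cfsg.pPrimeCore p ↥(A ⊓ Subgroup.centralizer {X}) = ⊥ := by
  rw [core_eq_bot_iff]
  intro V hV hcop
  -- elements of the cyclic group
  have key : ∀ v ∈ V, ((v : ↥(A ⊓ Subgroup.centralizer {X})) : G) ∈ Subgroup.zpowers X → v = 1 := by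
    intro v hv hvX
    have h1 : orderOf v ∣ Nat.card V := Subgroup.orderOf_dvd_natCard V hv
    have h2 : orderOf v ∣ p := by
      rw [← Subgroup.orderOf_coe, ← hX]
      exact orderOf_dvd_of_mem_zpowers hvX
    exact orderOf_eq_one_iff.mp (Nat.dvd_one.mp (hcop ▸ Nat.dvd_gcd h1 h2))
  let kk : ∀ k ∈ K₀, ↥(A ⊓ Subgroup.centralizer {X}) := fun k hk => ⟨k, hKA hk, hKX hk⟩
  set M : Subgroup G := V.map (Subgroup.subtype _) ⊓ K₀ with hM
  have hMbot : M = ⊥ := by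
    by_contra hne
    have h1 := hs M inf_le_right (by
      rintro n ⟨⟨v, hv, rfl⟩, hn2⟩ k hk
      exact ⟨⟨kk k hk * v * (kk k hk)⁻¹, hV.conj_mem v hv _, rfl⟩, K₀.mul_mem (K₀.mul_mem hk hn2) (K₀.inv_mem hk)⟩) hne
    have h2 : Nat.card M ∣ Nat.card V := by
      rw [Nat.card_congr (V.equivMapOfInjective _ (Subgroup.subtype_injective (A ⊓ Subgroup.centralizer {X}))).toEquiv]
      exact Subgroup.card_dvd_of_le inf_le_left
    have h3 : p ∣ 1 := hcop ▸ Nat.dvd_gcd (h1.trans h2) dvd_rfl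
    exact hp (Nat.dvd_one.mp h3)
  have step1 : ∀ v ∈ V, ((v : ↥(A ⊓ Subgroup.centralizer {X})) : G) ∈ I → v = 1 := by
    intro v hv hvI
    refine key v hv (hc _ v.2.1 v.2.2 fun k hk => ?_)
    have h1 : (v : G) * k * (v : G)⁻¹ * k⁻¹ ∈ M := by
      refine ⟨⟨v * (kk k hk * v⁻¹ * (kk k hk)⁻¹), mul_mem hv (hV.conj_mem _ (inv_mem hv) _), ?_⟩, K₀.mul_mem (hn _ hvI v.2.2 k hk) (K₀.inv_mem hk)⟩
      change (v : G) * (k * (v : G)⁻¹ * k⁻¹) = _
      group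
    rw [hMbot, Subgroup.mem_bot, mul_inv_eq_one, mul_inv_eq_iff_eq_mul] at h1
    exact h1
  rw [eq_bot_iff]
  intro v hv
  refine key v hv (hc _ v.2.1 v.2.2 fun k hk => ?_)
  have h1 := step1 (v * (kk k hk * v⁻¹ * (kk k hk)⁻¹)) (mul_mem hv (hV.conj_mem _ (inv_mem hv) _)) (by
    change (v : G) * (k * (v : G)⁻¹ * k⁻¹) ∈ I
    have h2 : (v : G) * (k * (v : G)⁻¹ * k⁻¹) = ((v : G) * k * (v : G)⁻¹) * k⁻¹ := by group
    rw [h2]
    exact mul_mem (hI.conj_mem k (hKI hk) _) (inv_mem (hKI hk)))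
  have h2 : (v : G) * (k * (v : G)⁻¹ * k⁻¹) = 1 := congrArg Subtype.val h1
  rw [← mul_assoc, ← mul_assoc, mul_inv_eq_one, mul_inv_eq_iff_eq_mul] at h2
  exact h2

theorem core_ne_bot {A I : Subgroup G} {x : G} (hI : I.Normal) (hIA : I ≤ A)
    (hcop : (Nat.card ↥(I ⊓ Subgroup.centralizer {x})).Coprime p) (hne : I ⊓ Subgroup.centralizer {x} ≠ ⊥) :
    Cfsg.pPrimeCore p ↥(A ⊓ Subgroup.centralizer {x}) ≠ ⊥ := by
  intro h
  rw [core_eq_bot_iff] at h
  have h1 : (I ⊓ Subgroup.centralizer {x}) ≤ (A ⊓ Subgroup.centralizer {x}) := inf_le_inf_right _ hIA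
  have h2 := h ((I ⊓ Subgroup.centralizer {x}).subgroupOf (A ⊓ Subgroup.centralizer {x})) (by
    constructor
    rintro n ⟨hn1, hn2⟩ g
    exact ⟨hI.conj_mem _ hn1 _, (g * n * g⁻¹).2.2⟩) (by
    rw [Nat.card_congr (Subgroup.subgroupOfEquivOfLe h1).toEquiv]
    exact hcop)
  apply hne
  rw [eq_bot_iff]
  intro y hy
  have h3 : (⟨y, h1 hy⟩ : ↥(A ⊓ Subgroup.centralizer {x})) ∈ (I ⊓ Subgroup.centralizer {x}).subgroupOf (A ⊓ Subgroup.centralizer {x}) := hy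
  rw [h2, Subgroup.mem_bot] at h3
  exact congrArg Subtype.val h3

end Abs

end Cfsg.Agent.H5.LB
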